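import Cfsg.Agent.Lib.H11CaDefs

/-! # Project 4088, piece Bot -/

set_option autoImplicit false

namespace Cfsg.Agent.Lib.H11CaBot

open Subgroup Cfsg.Agent.Lib.H11CaDefs

theorem exists_least {G : Type*} [Group G] (p : ℕ) (H : Subgroup G) (g : G)
    (h : ∃ T : Subgroup G, IsPGroup p T ∧ H ≤ T ∧ g ∈ normalizer (T : Set G)) :
    ∃ B : Subgroup G, IsPGroup p B ∧ H ≤ B ∧ g ∈ normalizer (B : Set G) ∧
      ∀ T : Subgroup G, IsPGroup p T → H ≤ T → g ∈ normalizer (T : Set G) → B ≤ T := by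
  obtain ⟨T₀, h1, h2, h3⟩ := h
  refine ⟨sInf {T | IsPGroup p T ∧ H ≤ T ∧ g ∈ normalizer (T : Set G)}, ?_, ?_, ?_, ?_⟩
  · exact h1.to_le (sInf_le ⟨h1, h2, h3⟩)
  · exact le_sInf (fun T hT => hT.2.1)
  · rw [mem_normalizer_iff]
    intro x
    rw [mem_sInf, mem_sInf]
    constructor
    · intro hx T hT
      exact (mem_normalizer_iff.1 hT.2.2 x).1 (hx T hT)
    · intro hx T hT
      exact (mem_normalizer_iff.1 hT.2.2 x).2 (hx T hT)
  · intro T a b c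
    exact sInf_le ⟨a, b, c⟩

end Cfsg.Agent.Lib.H11CaBot
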