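import Cfsg.Agent.Lib.H11CaDefs

/-! # Project 4088 wave 2, piece CenDvd -/

set_option autoImplicit false

namespace Cfsg.Agent.Lib.H11CaCenDvd

open Subgroup Cfsg.Agent.Lib.H11CaDefs

variable {G : Type*} [Group G] [Finite G]

theorem card_dvd (H M M' : Subgroup G) [M.Normal] (hle : M ≤ M') :
    Nat.card M ∣ Nat.card (Cen H M M') := by
  set C : Subgroup G :=
    M' ⊓ (centralizer ((H.map (QuotientGroup.mk' M) : Subgroup (G ⧸ M)) : Set (G ⧸ M))).comap
      (QuotientGroup.mk' M) with hC
  have key : ∀ u : G, u ∈ C ↔ u ∈ Cen H M M' := by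
    intro u
    rw [hC, mem_inf, mem_comap, mem_centralizer_iff]
    refine and_congr Iff.rfl ?_
    constructor
    · intro h1 h hh
      have := h1 (QuotientGroup.mk' M h) (mem_map_of_mem _ hh)
      rw [← QuotientGroup.eq_one_iff]
      have e : ((h * u * h⁻¹ * u⁻¹ : G) : G ⧸ M)
          = QuotientGroup.mk' M h * QuotientGroup.mk' M u * (QuotientGroup.mk' M h)⁻¹ *
            (QuotientGroup.mk' M u)⁻¹ := by simp
      rw [e, this]
      group
    · intro h1 y hy
      obtain ⟨h, hh, rfl⟩ := hy
      have := h1 h hh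
      rw [← QuotientGroup.eq_one_iff] at this
      have e : ((h * u * h⁻¹ * u⁻¹ : G) : G ⧸ M)
          = QuotientGroup.mk' M h * QuotientGroup.mk' M u * (QuotientGroup.mk' M h)⁻¹ *
            (QuotientGroup.mk' M u)⁻¹ := by simp
      rw [e] at this
      have h2 : QuotientGroup.mk' M h * QuotientGroup.mk' M u
          = (QuotientGroup.mk' M h * QuotientGroup.mk' M u * (QuotientGroup.mk' M h)⁻¹ *
            (QuotientGroup.mk' M u)⁻¹) * (QuotientGroup.mk' M u * QuotientGroup.mk' M h) := by
        group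
      rw [h2, this, one_mul]
  have hset : (C : Set G) = Cen H M M' := by
    ext u; exact key u
  have hMC : M ≤ C := by
    intro u hu
    rw [key]
    refine ⟨hle hu, fun h _ => ?_⟩
    have h1 : h * u * h⁻¹ ∈ M := (inferInstance : M.Normal).conj_mem u hu h
    exact M.mul_mem h1 (M.inv_mem hu)
  have := card_dvd_of_le hMC
  rw [← hset]
  exact this

end Cfsg.Agent.Lib.H11CaCenDvd
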