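import Mathlib

/-! # Project 4088, piece ChainInf -/

set_option autoImplicit false

namespace Cfsg.Agent.Lib.H11CaChainInf

/-- a non-empty finite chain in a complete lattice contains its infimum. -/
theorem sInf_mem {α : Type*} [CompleteLattice α] (s : Finset α) (hs : s.Nonempty)
    (hc : IsChain (· ≤ ·) (s : Set α)) : sInf (s : Set α) ∈ s := by
  classical
  induction s using Finset.induction_on with
  | empty => exact absurd hs (by simp)
  | insert a s ha ih =>
    rw [Finset.coe_insert, sInf_insert]
    by_cases hs' : s.Nonempty
    · have hc' : IsChain (· ≤ ·) (s : Set α) :=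
        hc.mono (by rw [Finset.coe_insert]; exact Set.subset_insert _ _)
      have hm := ih hs' hc'
      have hne : a ≠ sInf (s : Set α) := fun h => ha (h ▸ hm)
      rcases hc (by simp) (by simp [hm] : sInf (s : Set α) ∈ ((insert a s : Finset α) : Set α)) hne with h | h
      · rw [inf_eq_left.2 h]; exact Finset.mem_insert_self _ _
      · rw [inf_eq_right.2 h]; exact Finset.mem_insert_of_mem hm
    · rw [Finset.not_nonempty_iff_eq_empty] at hs'
      subst hs'
      simp

/-- dual statement. -/
theorem sSup_mem {α : Type*} [CompleteLattice α] (s : Finset α) (hs : s.Nonempty)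
    (hc : IsChain (· ≤ ·) (s : Set α)) : sSup (s : Set α) ∈ s := by
  classical
  induction s using Finset.induction_on with
  | empty => exact absurd hs (by simp)
  | insert a s ha ih =>
    rw [Finset.coe_insert, sSup_insert]
    by_cases hs' : s.Nonempty
    · have hc' : IsChain (· ≤ ·) (s : Set α) :=
        hc.mono (by rw [Finset.coe_insert]; exact Set.subset_insert _ _)
      have hm := ih hs' hc'
      have hne : a ≠ sSup (s : Set α) := fun h => ha (h ▸ hm)
      rcases hc (by simp) (by simp [hm] : sSup (s : Set α) ∈ ((insert a s : Finset α) : Set α)) hne with h | h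
      · rw [sup_eq_right.2 h]; exact Finset.mem_insert_of_mem hm
      · rw [sup_eq_left.2 h]; exact Finset.mem_insert_self _ _
    · rw [Finset.not_nonempty_iff_eq_empty] at hs'
      subst hs'
      simp

end Cfsg.Agent.Lib.H11CaChainInf
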