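import Cfsg.Agent.Lib.H11CaDefs

/-! # Project 4088 wave 2, piece CountQ (90 min, PURE MATHLIB + Defs, START FIRST) -/

set_option autoImplicit false

namespace Cfsg.Agent.Lib.H11CaCountQ

open Subgroup Cfsg.Agent.Lib.H11CaDefs

variable {G : Type*} [Group G] [Finite G]

/-- **Double counting of `Z = {(x, m) | x ∈ Lam H B', m ∈ M', x m ∈ Lam H B}`.**

SKETCH.  (a) by `y = x * m`: the map `(y, m) ↦ (y * m⁻¹, m)` is a bijection `Lam H B × M' ≃ Z`: if `y ∈ Lam H B` and `m ∈ M'` then `y * m⁻¹ ∈ Lam H B'`, because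
`(y m⁻¹)⁻¹ h (y m⁻¹) = m (y⁻¹ h y) m⁻¹` with `y⁻¹ h y ∈ B ≤ B'` and `m ∈ M' ≤ B'`.  So `|Z| = |Lam H B| * |M'|`.
(b) by `x`: for `x ∈ Lam H B'` choose `m₀` by `hmove`, `x₀ := x * m₀ ∈ Lam H B`.  `m ↦ x₀ * (m₀⁻¹ * m) * x₀⁻¹` is a bijection from `{m ∈ M' | x * m ∈ Lam H B}` onto `Cen H M M'`
(`x * m = x₀ * (m₀⁻¹ * m)`, `hfix`; inverse `u ↦ m₀ * (x₀⁻¹ * u * x₀)`, which lies in `M'` as `Cen ⊆ M'` and `M'` is normal).  So every fibre has `|Cen H M M'|` elements and `|Z| = |Lam H B'| * |Cen|`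
(`Nat.card_sigma`, `Finset.sum_const`; or an explicit equivalence `Z ≃ Lam H B' × Cen H M M'` using `Classical.choose`). -/
theorem count (H B B' M M' : Subgroup G) [M'.Normal] (hBB' : B ≤ B') (hM'B' : M' ≤ B')
    (hmove : ∀ x ∈ Lam H B', ∃ m₀ ∈ M', x * m₀ ∈ Lam H B)
    (hfix : ∀ x₀ ∈ Lam H B, ∀ m ∈ M', (x₀ * m ∈ Lam H B ↔ x₀ * m * x₀⁻¹ ∈ Cen H M M')) :
    Nat.card (Lam H B) * Nat.card M' = Nat.card (Lam H B') * Nat.card (Cen H M M') := by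
  classical
  choose! m₀ hm₀M hm₀ using hmove
  have hN : M'.Normal := inferInstance
  have h1 : ∀ y ∈ Lam H B, ∀ m ∈ M', y * m⁻¹ ∈ Lam H B' := by
    intro y hy m hm h hh
    have e : (y * m⁻¹)⁻¹ * h * (y * m⁻¹) = m * (y⁻¹ * h * y) * m⁻¹ := by group
    rw [e]
    exact B'.mul_mem (B'.mul_mem (hM'B' hm) (hBB' (hy h hh))) (B'.inv_mem (hM'B' hm))
  have e1 : (Lam H B) × M' ≃ {z : G × G // z.1 ∈ Lam H B' ∧ z.2 ∈ M' ∧ z.1 * z.2 ∈ Lam H B} :=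
    { toFun := fun a => ⟨(a.1.1 * a.2.1⁻¹, a.2.1), h1 _ a.1.2 _ a.2.2, a.2.2, by simpa using a.1.2⟩
      invFun := fun z => (⟨z.1.1 * z.1.2, z.2.2.2⟩, ⟨z.1.2, z.2.2.1⟩)
      left_inv := fun a => by ext <;> simp
      right_inv := fun z => by ext <;> simp }
  have h2 : ∀ x ∈ Lam H B', ∀ m ∈ M', x * m ∈ Lam H B →
      (x * m₀ x) * ((m₀ x)⁻¹ * m) * (x * m₀ x)⁻¹ ∈ Cen H M M' := by
    intro x hx m hm hxm
    refine (hfix _ (hm₀ _ hx) ((m₀ x)⁻¹ * m) (M'.mul_mem (M'.inv_mem (hm₀M _ hx)) hm)).1 ?_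
    have e : x * m₀ x * ((m₀ x)⁻¹ * m) = x * m := by group
    rw [e]; exact hxm
  have h3 : ∀ x ∈ Lam H B', ∀ u ∈ Cen H M M',
      m₀ x * ((x * m₀ x)⁻¹ * u * (x * m₀ x)) ∈ M' := by
    intro x hx u hu
    refine M'.mul_mem (hm₀M _ hx) ?_
    simpa using hN.conj_mem u hu.1 (x * m₀ x)⁻¹
  have h4 : ∀ x ∈ Lam H B', ∀ u ∈ Cen H M M',
      x * (m₀ x * ((x * m₀ x)⁻¹ * u * (x * m₀ x))) ∈ Lam H B := by
    intro x hx u hu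
    have hmem : (x * m₀ x)⁻¹ * u * (x * m₀ x) ∈ M' := by
      simpa using hN.conj_mem u hu.1 (x * m₀ x)⁻¹
    have h := (hfix _ (hm₀ _ hx) _ hmem).2 (by
      have e : x * m₀ x * ((x * m₀ x)⁻¹ * u * (x * m₀ x)) * (x * m₀ x)⁻¹ = u := by group
      rw [e]; exact hu)
    rwa [mul_assoc x] at h
  have e2 : {z : G × G // z.1 ∈ Lam H B' ∧ z.2 ∈ M' ∧ z.1 * z.2 ∈ Lam H B} ≃
      (Lam H B') × (Cen H M M') :=
    { toFun := fun z => (⟨z.1.1, z.2.1⟩, ⟨_, h2 _ z.2.1 _ z.2.2.1 z.2.2.2⟩)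
      invFun := fun a => ⟨(a.1.1, m₀ a.1.1 * ((a.1.1 * m₀ a.1.1)⁻¹ * a.2.1 * (a.1.1 * m₀ a.1.1))),
        a.1.2, h3 _ a.1.2 _ a.2.2, h4 _ a.1.2 _ a.2.2⟩
      left_inv := fun z => by
        apply Subtype.ext
        apply Prod.ext
        · rfl
        · show m₀ z.1.1 * ((z.1.1 * m₀ z.1.1)⁻¹ * ((z.1.1 * m₀ z.1.1) * ((m₀ z.1.1)⁻¹ * z.1.2) *
            (z.1.1 * m₀ z.1.1)⁻¹) * (z.1.1 * m₀ z.1.1)) = z.1.2
          group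
      right_inv := fun a => by
        apply Prod.ext
        · rfl
        · apply Subtype.ext
          show (a.1.1 * m₀ a.1.1) * ((m₀ a.1.1)⁻¹ * (m₀ a.1.1 * ((a.1.1 * m₀ a.1.1)⁻¹ * a.2.1 *
            (a.1.1 * m₀ a.1.1)))) * (a.1.1 * m₀ a.1.1)⁻¹ = a.2.1
          group }
  rw [← Nat.card_prod, ← Nat.card_prod]
  exact Nat.card_congr (e1.trans e2)

end Cfsg.Agent.Lib.H11CaCountQ
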