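import Mathlib

/-!
# Project 4088 (Casolo's subnormalizer formula): vocabulary

`G` finite, `H` a `p`-subgroup.  `SubN H = {g | H is subnormal in ⟨H, g⟩}`.
Chains of `p`-subgroups containing `H` are `Finset (Subgroup G)`; the empty chain is allowed.
-/

set_option autoImplicit false

namespace Cfsg.Agent.Lib.H11CaDefs

open Subgroup

variable {G : Type*} [Group G]

/-- the subnormalizer of `H` -/
def SubN (H : Subgroup G) : Set G :=
  {g | (H.subgroupOf (H ⊔ Subgroup.zpowers g)).IsSubnormal}

/-- (possibly empty) chain of `p`-subgroups containing `H` -/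
def IsCh (p : ℕ) (H : Subgroup G) (c : Finset (Subgroup G)) : Prop :=
  IsChain (· ≤ ·) (c : Set (Subgroup G)) ∧ ∀ T ∈ c, IsPGroup p T ∧ H ≤ T

/-- normal chain: every member is normalized by every larger member -/
def IsN (c : Finset (Subgroup G)) : Prop :=
  ∀ T ∈ c, ∀ U ∈ c, T ≤ U → U ≤ normalizer (T : Set G)

/-- the stabilizer of a chain -/
def Stab (c : Finset (Subgroup G)) : Subgroup G := ⨅ T ∈ c, normalizer (T : Set G)

/-- the sign `(-1)^|c|` -/
def sg (c : Finset (Subgroup G)) : ℤ := (-1) ^ c.card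

/-- the weight of a chain -/
noncomputable def wt (c : Finset (Subgroup G)) : ℤ := sg c * (Nat.card (Stab c) : ℤ)

/-- the finite set of all chains -/
noncomputable def Ch [Finite G] (p : ℕ) (H : Subgroup G) : Finset (Finset (Subgroup G)) :=
  (Set.toFinite {c : Finset (Subgroup G) | IsCh p H c}).toFinset

/-- the finite set of all normal chains -/
noncomputable def NCh [Finite G] (p : ℕ) (H : Subgroup G) : Finset (Finset (Subgroup G)) :=
  (Set.toFinite {c : Finset (Subgroup G) | IsCh p H c ∧ IsN c}).toFinset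

/-- the largest member of a non-empty chain -/
def top (c : Finset (Subgroup G)) : Subgroup G := sSup (c : Set (Subgroup G))

/-- `T` is a Sylow `p`-subgroup of the subgroup `L` -/
def IsSyl (p : ℕ) (T L : Subgroup G) : Prop :=
  T ≤ L ∧ IsPGroup p T ∧ ∀ Q : Subgroup G, IsPGroup p Q → T ≤ Q → Q ≤ L → Q = T

/-- the finite set of Sylow `p`-subgroups of `L` -/
noncomputable def Syl [Finite G] (p : ℕ) (L : Subgroup G) : Finset (Subgroup G) :=
  (Set.toFinite {T : Subgroup G | IsSyl p T L}).toFinset

open Classical in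
/-- the members of `c` which are not normalized by some larger member -/
noncomputable def bad (c : Finset (Subgroup G)) : Finset (Subgroup G) :=
  c.filter (fun T => ∃ U ∈ c, T ≤ U ∧ ¬ U ≤ normalizer (T : Set G))

/-- the smallest bad member -/
noncomputable def ii (c : Finset (Subgroup G)) : Subgroup G := sInf (bad c : Set (Subgroup G))

open Classical in
/-- the smallest member not normalizing `ii c` -/
noncomputable def jj (c : Finset (Subgroup G)) : Subgroup G :=
  sInf ((c.filter (fun U => ii c ≤ U ∧ ¬ U ≤ normalizer (ii c : Set G)) : Finset (Subgroup G)) :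
    Set (Subgroup G))

/-- `N_{jj c}(ii c)` -/
noncomputable def MM (c : Finset (Subgroup G)) : Subgroup G := jj c ⊓ normalizer (ii c : Set G)

open Classical in
/-- insert / remove `MM c` -/
noncomputable def tog (c : Finset (Subgroup G)) : Finset (Subgroup G) :=
  if MM c ∈ c then c.erase (MM c) else insert (MM c) c

/-- `{x | x⁻¹ H x ≤ B}` -/
def Lam (H B : Subgroup G) : Set G := {x | ∀ h ∈ H, x⁻¹ * h * x ∈ B}

/-- `{u ∈ M' | [h, u] ∈ M for all h ∈ H}` -/
def Cen (H M M' : Subgroup G) : Set G := {u | u ∈ M' ∧ ∀ h ∈ H, h * u * h⁻¹ * u⁻¹ ∈ M}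

section basic

theorem mem_Stab {c : Finset (Subgroup G)} {g : G} :
    g ∈ Stab c ↔ ∀ T ∈ c, g ∈ normalizer (T : Set G) := by
  simp [Stab, Subgroup.mem_iInf]

theorem mem_Ch [Finite G] {p : ℕ} {H : Subgroup G} {c : Finset (Subgroup G)} :
    c ∈ Ch p H ↔ IsCh p H c := by
  simp [Ch]

theorem mem_NCh [Finite G] {p : ℕ} {H : Subgroup G} {c : Finset (Subgroup G)} :
    c ∈ NCh p H ↔ IsCh p H c ∧ IsN c := by
  simp [NCh]

theorem mem_Syl [Finite G] {p : ℕ} {T L : Subgroup G} : T ∈ Syl p L ↔ IsSyl p T L := by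
  simp [Syl]

theorem NCh_subset_Ch [Finite G] (p : ℕ) (H : Subgroup G) : NCh p H ⊆ Ch p H := by
  intro c hc
  exact mem_Ch.2 (mem_NCh.1 hc).1

end basic

end Cfsg.Agent.Lib.H11CaDefs
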