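import Cfsg.Agent.Lib.H11CaPerG

/-! # Project 4088, piece Double (45 min) -/

set_option autoImplicit false

namespace Cfsg.Agent.Lib.H11CaDouble

open Subgroup Cfsg.Agent.Lib.H11CaDefs

/-- **Double counting.** -/
theorem sum_wt_Ch {G : Type*} [Group G] [Finite G] (p : ℕ) [Fact p.Prime] (H : Subgroup G)
    (hH : IsPGroup p H) :
    ∑ c ∈ Ch p H, wt c = (Nat.card G : ℤ) - (Nat.card (SubN H) : ℤ) := by
  classical
  haveI : Fintype G := Fintype.ofFinite G
  have hcard : ∀ s : Set G, (Nat.card s : ℤ) = ∑ g : G, if g ∈ s then (1 : ℤ) else 0 := by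
    intro s
    rw [Finset.sum_boole, Nat.card_eq_fintype_card, Fintype.card_subtype]
  have h1 : ∀ c : Finset (Subgroup G), wt c = ∑ g : G, if g ∈ Stab c then sg c else 0 := by
    intro c
    unfold wt
    have := hcard (Stab c : Set G)
    have h2 : (Nat.card (Stab c) : ℤ) = ∑ g : G, if g ∈ Stab c then (1 : ℤ) else 0 := this
    rw [h2, Finset.mul_sum]
    apply Finset.sum_congr rfl
    intro g _
    split_ifs <;> simp
  rw [Finset.sum_congr rfl (fun c _ => h1 c), Finset.sum_comm]
  have h3 : ∀ g : G, ∑ c ∈ Ch p H, (if g ∈ Stab c then sg c else 0) =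
      if g ∈ SubN H then 0 else 1 := by
    intro g
    rw [← Finset.sum_filter]
    exact H11CaPerG.sum_fixed p H hH g
  rw [Finset.sum_congr rfl (fun g _ => h3 g), hcard (SubN H)]
  have h4 : (Nat.card G : ℤ) = ∑ g : G, (1 : ℤ) := by
    rw [Finset.sum_const, Finset.card_univ, Nat.card_eq_fintype_card]
    simp
  rw [h4, ← Finset.sum_sub_distrib]
  apply Finset.sum_congr rfl
  intro g _
  split_ifs <;> simp

end Cfsg.Agent.Lib.H11CaDouble
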