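import Cfsg.Agent.Lib.H11CaTog

/-! # Project 4088, piece E3 -/

set_option autoImplicit false

namespace Cfsg.Agent.Lib.H11CaE3

open Subgroup Cfsg.Agent.Lib.H11CaDefs Cfsg.Agent.Lib.H11CaTog

variable {G : Type*} [Group G] [Finite G]

theorem sum_Ch_eq_sum_NCh (p : ℕ) [Fact p.Prime] (H : Subgroup G) :
    ∑ c ∈ Ch p H, wt c = ∑ c ∈ NCh p H, wt c := by
  classical
  rw [← Finset.sum_filter_add_sum_filter_not (Ch p H) IsN]
  have h1 : (Ch p H).filter IsN = NCh p H := by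
    ext c
    simp [mem_Ch, mem_NCh]
  rw [h1]
  have h2 : ∑ c ∈ (Ch p H).filter (fun c => ¬ IsN c), wt c = 0 := by
    apply Finset.sum_involution (fun c _ => tog c)
    · intro c hc
      obtain ⟨hc1, hc2⟩ := Finset.mem_filter.1 hc
      obtain ⟨-, -, -, a4, a5⟩ := tog_spec p H c (mem_Ch.1 hc1) hc2
      unfold wt
      rw [a4, a5]; ring
    · intro c hc hw heq
      obtain ⟨hc1, hc2⟩ := Finset.mem_filter.1 hc
      obtain ⟨-, -, -, a4, -⟩ := tog_spec p H c (mem_Ch.1 hc1) hc2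
      rw [heq] at a4
      have : sg c = 0 := by linarith
      apply hw
      unfold wt
      rw [this, zero_mul]
    · intro c hc
      obtain ⟨hc1, hc2⟩ := Finset.mem_filter.1 hc
      obtain ⟨a1, a2, -, -, -⟩ := tog_spec p H c (mem_Ch.1 hc1) hc2
      exact Finset.mem_filter.2 ⟨mem_Ch.2 a1, a2⟩
    · intro c hc
      obtain ⟨hc1, hc2⟩ := Finset.mem_filter.1 hc
      exact (tog_spec p H c (mem_Ch.1 hc1) hc2).2.2.1
  rw [h2, add_zero]

end Cfsg.Agent.Lib.H11CaE3
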