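import Cfsg.Agent.Lib.H11CaDefs

/-! # Project 4088, piece SylB (60 min, PURE MATHLIB + Defs): basic facts on `IsSyl` -/

set_option autoImplicit false

namespace Cfsg.Agent.Lib.H11CaSylB

open Subgroup Cfsg.Agent.Lib.H11CaDefs

variable {G : Type*} [Group G] [Finite G]

/-- a `p`-subgroup of `L` normalized by `L` lies in every Sylow `p`-subgroup of `L`. -/
theorem normal_le (p : ℕ) [Fact p.Prime] {S N L : Subgroup G} (hS : IsSyl p S L) (hN : IsPGroup p N)
    (hNL : N ≤ L) (hL : L ≤ normalizer (N : Set G)) : N ≤ S := by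
  have h1 : IsPGroup p (S ⊔ N : Subgroup G) :=
    IsPGroup.to_sup_of_normal_right' hS.2.1 hN (hS.1.trans hL)
  have h2 := hS.2.2 (S ⊔ N) h1 le_sup_left (sup_le hS.1 hNL)
  rw [← h2]
  exact le_sup_right

/-- a `p`-subgroup which is Sylow in its normalizer in `L` is Sylow in `L`. -/
theorem of_normalizer (p : ℕ) [Fact p.Prime] {S L : Subgroup G}
    (hS : IsSyl p S (L ⊓ normalizer (S : Set G))) : IsSyl p S L := by
  refine ⟨hS.1.trans inf_le_left, hS.2.1, ?_⟩
  intro Q hQ hSQ hQL
  by_contra hne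
  haveI : Group.IsNilpotent Q := hQ.isNilpotent
  have hnc : NormalizerCondition Q := Group.normalizerCondition_of_isNilpotent
  have hlt : S.subgroupOf Q < ⊤ := by
    rw [lt_top_iff_ne_top, Ne, subgroupOf_eq_top]
    intro h
    exact hne (le_antisymm h hSQ)
  have h1 := hnc _ hlt
  rw [← subgroupOf_normalizer_eq hSQ] at h1
  obtain ⟨x, hx1, hx2⟩ := SetLike.exists_of_lt h1
  have hR := hS.2.2 (Q ⊓ normalizer (S : Set G)) (hQ.to_le inf_le_left) (le_inf hSQ le_normalizer)
    (inf_le_inf_right _ hQL)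
  apply hx2
  rw [mem_subgroupOf, ← hR]
  exact ⟨x.2, mem_subgroupOf.1 hx1⟩

/-- the converse (trivial): Sylow in `L` implies Sylow in every `L'` with `S ≤ L' ≤ L`. -/
theorem mono (p : ℕ) {S L L' : Subgroup G} (hS : IsSyl p S L) (h1 : S ≤ L') (h2 : L' ≤ L) :
    IsSyl p S L' :=
  ⟨h1, hS.2.1, fun Q hQ hSQ hQL => hS.2.2 Q hQ hSQ (hQL.trans h2)⟩

theorem isSyl_map (p : ℕ) [Fact p.Prime] (L : Subgroup G) (Q : Sylow p L) :
    IsSyl p ((Q : Subgroup L).map L.subtype) L := by
  refine ⟨map_subtype_le _, Q.2.map _, ?_⟩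
  intro R hR hQR hRL
  have h1 : IsPGroup p (R.subgroupOf L) := hR.of_equiv (subgroupOfEquivOfLe hRL).symm
  have h2 : (Q : Subgroup L) ≤ R.subgroupOf L := map_le_iff_le_comap.1 hQR
  have h3 := Q.is_maximal' h1 h2
  rw [← map_subgroupOf_eq_of_le hRL, h3]

theorem exists_sylow (p : ℕ) [Fact p.Prime] {L T : Subgroup G} (hT : IsSyl p T L) :
    ∃ Q : Sylow p L, (Q : Subgroup L).map L.subtype = T := by
  refine ⟨⟨T.subgroupOf L, hT.2.1.of_equiv (subgroupOfEquivOfLe hT.1).symm, ?_⟩,
    map_subgroupOf_eq_of_le hT.1⟩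
  intro Q' hQ' hle
  have h1 : T ≤ Q'.map L.subtype := by
    rw [← map_subgroupOf_eq_of_le hT.1]
    exact map_mono hle
  have h2 := hT.2.2 _ (hQ'.map _) h1 (map_subtype_le _)
  rw [← h2]
  exact (comap_map_eq_self_of_injective L.subtype_injective Q').symm

theorem card_term (p : ℕ) [Fact p.Prime] (L : Subgroup G) (Q : Sylow p L) :
    Nat.card (Sylow p L) * Nat.card ↥(L ⊓ normalizer (((Q : Subgroup L).map L.subtype : Subgroup G) : Set G))
      = Nat.card L := by
  have h1 : Nat.card ↥(L ⊓ normalizer (((Q : Subgroup L).map L.subtype : Subgroup G) : Set G)) =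
      Nat.card (normalizer ((Q : Subgroup L) : Set L)) := by
    rw [← Nat.card_congr (subgroupOfEquivOfLe (inf_le_left :
      L ⊓ normalizer (((Q : Subgroup L).map L.subtype : Subgroup G) : Set G) ≤ L)).toEquiv,
      inf_subgroupOf_left, subgroupOf_normalizer_eq (map_subtype_le _)]
    have : ((Q : Subgroup L).map L.subtype).subgroupOf L = (Q : Subgroup L) :=
      comap_map_eq_self_of_injective L.subtype_injective _
    rw [this]
  rw [h1, Sylow.card_eq_index_normalizer Q]
  exact index_mul_card _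

/-- **Counting.**  `∑_{S ∈ Syl_p(L)} |N_L(S)| = |L|`. -/
theorem sum_card_normalizer (p : ℕ) [Fact p.Prime] (L : Subgroup G) :
    ∑ S ∈ Syl p L, Nat.card ↥(L ⊓ normalizer (S : Set G)) = Nat.card L := by
  classical
  haveI : Fintype (Sylow p L) := Fintype.ofFinite _
  have himg : Syl p L = Finset.univ.image (fun Q : Sylow p L => (Q : Subgroup L).map L.subtype) := by
    ext T
    rw [mem_Syl, Finset.mem_image]
    constructor
    · intro hT
      obtain ⟨Q, hQ⟩ := exists_sylow p hT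
      exact ⟨Q, Finset.mem_univ _, hQ⟩
    · rintro ⟨Q, _, rfl⟩
      exact isSyl_map p L Q
  rw [himg, Finset.sum_image]
  · have hpos : 0 < Nat.card (Sylow p L) := Nat.card_pos
    apply Nat.eq_of_mul_eq_mul_left hpos
    rw [Finset.mul_sum, Finset.sum_congr rfl (fun Q _ => card_term p L Q), Finset.sum_const,
      Finset.card_univ, smul_eq_mul, Nat.card_eq_fintype_card (α := Sylow p L)]
  · intro Q _ Q' _ h
    apply Sylow.ext
    exact map_injective L.subtype_injective h

end Cfsg.Agent.Lib.H11CaSylB
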