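import Cfsg.Agent.Lib.H11CaTop
import Cfsg.Agent.Lib.H11CaSylB

/-! # Project 4088, piece One (60 min) -/

set_option autoImplicit false

namespace Cfsg.Agent.Lib.H11CaOne

open Subgroup Cfsg.Agent.Lib.H11CaDefs Cfsg.Agent.Lib.H11CaTop Cfsg.Agent.Lib.H11CaSylB

variable {G : Type*} [Group G] [Finite G]

omit [Finite G] in
theorem top_sing (T : Subgroup G) : top ({T} : Finset (Subgroup G)) = T :=
  top_eq {T} T (Finset.mem_singleton_self T) (fun _ hU => (Finset.mem_singleton.1 hU).le)

omit [Finite G] in
theorem Stab_sing (T : Subgroup G) : Stab ({T} : Finset (Subgroup G)) = normalizer (T : Set G) := by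
  simp [Stab]

open Classical in
/-- **Chains of length one whose member is Sylow in its normalizer.** -/
theorem sum_one (p : ℕ) [Fact p.Prime] (H : Subgroup G) :
    ∑ c ∈ (NCh p H).filter (fun c => c.card = 1 ∧ IsSyl p (top c) (Stab c)), wt c =
      - ∑ Q ∈ (Syl p (⊤ : Subgroup G)).filter (fun Q => H ≤ Q),
          (Nat.card ↥(normalizer (Q : Set G)) : ℤ) := by
  have himg : (NCh p H).filter (fun c => c.card = 1 ∧ IsSyl p (top c) (Stab c)) =
      ((Syl p (⊤ : Subgroup G)).filter (fun Q => H ≤ Q)).image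
        (fun T => ({T} : Finset (Subgroup G))) := by
    ext c
    simp only [Finset.mem_filter, Finset.mem_image, mem_NCh, mem_Syl]
    constructor
    · rintro ⟨⟨hc, hn⟩, h1, hS⟩
      obtain ⟨T, rfl⟩ := Finset.card_eq_one.1 h1
      rw [top_sing, Stab_sing] at hS
      refine ⟨T, ⟨?_, (hc.2 T (Finset.mem_singleton_self T)).2⟩, rfl⟩
      apply of_normalizer p
      rw [top_inf_eq]
      exact hS
    · rintro ⟨T, ⟨hT, hHT⟩, rfl⟩
      refine ⟨⟨⟨?_, ?_⟩, ?_⟩, Finset.card_singleton T, ?_⟩
      · rw [Finset.coe_singleton]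
        exact IsChain.singleton
      · intro U hU
        rw [Finset.mem_singleton.1 hU]
        exact ⟨hT.2.1, hHT⟩
      · intro U hU V hV _
        rw [Finset.mem_singleton.1 hU, Finset.mem_singleton.1 hV]
        exact le_normalizer
      · rw [top_sing, Stab_sing]
        exact mono p hT le_normalizer le_top
  rw [himg, Finset.sum_image (fun a _ b _ h => Finset.singleton_injective h), ← Finset.sum_neg_distrib]
  apply Finset.sum_congr rfl
  intro T _
  unfold wt sg
  rw [Finset.card_singleton, Stab_sing]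
  ring

end Cfsg.Agent.Lib.H11CaOne
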