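import Cfsg.Agent.Lib.H11CaFib
import Cfsg.Agent.Lib.H11CaOne

/-! # Project 4088, piece E4 (60 min) -/

set_option autoImplicit false

namespace Cfsg.Agent.Lib.H11CaE4

open Subgroup Cfsg.Agent.Lib.H11CaDefs Cfsg.Agent.Lib.H11CaFib Cfsg.Agent.Lib.H11CaOne

variable {G : Type*} [Group G] [Finite G]

open Classical in
/-- **The weighted sum over the normal chains.** -/
theorem sum_wt_NCh (p : ℕ) [Fact p.Prime] (H : Subgroup G) :
    ∑ c ∈ NCh p H, wt c = (Nat.card G : ℤ) -
      ∑ Q ∈ (Syl p (⊤ : Subgroup G)).filter (fun Q => H ≤ Q),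
          (Nat.card ↥(normalizer (Q : Set G)) : ℤ) := by
  have key : ∀ c : Finset (Subgroup G), wt c = (if c = ∅ then wt c else 0) +
      (if c.Nonempty ∧ ¬ IsSyl p (top c) (Stab c) then wt c else 0) +
      (if c.card = 1 ∧ IsSyl p (top c) (Stab c) then wt c else 0) +
      (if 2 ≤ c.card ∧ IsSyl p (top c) (Stab c) then wt c else 0) := by
    intro c
    by_cases h0 : c = ∅
    · subst h0; simp
    · have hne : c.Nonempty := Finset.nonempty_iff_ne_empty.2 h0
      have hpos : 0 < c.card := Finset.card_pos.2 hne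
      by_cases hS : IsSyl p (top c) (Stab c)
      · by_cases h1 : c.card = 1
        · simp [h0, hS, h1]
        · have h2 : 2 ≤ c.card := by omega
          simp [h0, hS, h1, h2]
      · simp [h0, hne, hS]
  have hempty : (∅ : Finset (Subgroup G)) ∈ NCh p H := by
    rw [mem_NCh]
    refine ⟨⟨?_, ?_⟩, ?_⟩
    · rw [Finset.coe_empty]; exact IsChain.empty
    · intro T hT; exact absurd hT (Finset.notMem_empty T)
    · intro T hT; exact absurd hT (Finset.notMem_empty T)
  have hwt0 : wt (∅ : Finset (Subgroup G)) = (Nat.card G : ℤ) := by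
    unfold wt sg
    have : Stab (∅ : Finset (Subgroup G)) = ⊤ := by simp [Stab]
    rw [this, Finset.card_empty, pow_zero, one_mul, Subgroup.card_top]
  have hBB : ∑ c ∈ BB p H, wt c = - ∑ c ∈ AA p H, wt c := by
    rw [← Finset.sum_fiberwise_of_maps_to (maps_to p H) wt, ← Finset.sum_neg_distrib]
    exact Finset.sum_congr rfl (fun c₀ h => sum_fibre p H c₀ h)
  rw [Finset.sum_congr rfl (fun c _ => key c), Finset.sum_add_distrib, Finset.sum_add_distrib,
    Finset.sum_add_distrib, Finset.sum_ite_eq', if_pos hempty, hwt0, ← Finset.sum_filter,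
    ← Finset.sum_filter, ← Finset.sum_filter, sum_one]
  have e1 : ∑ c ∈ (NCh p H).filter (fun c => c.Nonempty ∧ ¬ IsSyl p (top c) (Stab c)), wt c =
      ∑ c ∈ AA p H, wt c := rfl
  have e2 : ∑ c ∈ (NCh p H).filter (fun c => 2 ≤ c.card ∧ IsSyl p (top c) (Stab c)), wt c =
      ∑ c ∈ BB p H, wt c := rfl
  rw [e1, e2, hBB]
  ring

end Cfsg.Agent.Lib.H11CaE4
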