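import Cfsg.Agent.Lib.H11CaTop
import Cfsg.Agent.Lib.H11CaSylB

/-! # Project 4088, piece Ext (60 min) -/

set_option autoImplicit false

namespace Cfsg.Agent.Lib.H11CaExt

open Subgroup Cfsg.Agent.Lib.H11CaDefs Cfsg.Agent.Lib.H11CaTop Cfsg.Agent.Lib.H11CaSylB

variable {G : Type*} [Group G] [Finite G]

open Classical in
/-- **Extending a normal chain by a Sylow subgroup of its stabilizer.** -/
theorem ext_spec (p : ℕ) [Fact p.Prime] (H : Subgroup G) (c₀ : Finset (Subgroup G))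
    (hc : IsCh p H c₀) (hn : IsN c₀) (hne : c₀.Nonempty) (S : Subgroup G)
    (hS : IsSyl p S (Stab c₀)) (hST : S ≠ top c₀) :
    S ∉ c₀ ∧ IsCh p H (insert S c₀) ∧ IsN (insert S c₀) ∧ top (insert S c₀) = S ∧
      IsSyl p S (Stab (insert S c₀)) := by
  obtain ⟨t1, t2⟩ := top_spec c₀ hne hc.1
  obtain ⟨s1, s2⟩ := top_le_Stab c₀ hne hc.1 hn
  have hTS : top c₀ ≤ S := normal_le p hS (hc.2 _ t1).1 s1 s2
  have hle : ∀ T ∈ c₀, T ≤ S := fun T hT => (t2 T hT).trans hTS
  have hSn : ∀ T ∈ c₀, S ≤ normalizer (T : Set G) := fun T hT g hg => mem_Stab.1 (hS.1 hg) T hT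
  have hSc : S ∉ c₀ := fun h => hST (le_antisymm (t2 S h) hTS)
  refine ⟨hSc, ⟨?_, ?_⟩, ?_, ?_, ?_⟩
  · rw [Finset.coe_insert]
    apply hc.1.insert
    intro b hb _
    right
    exact hle b (Finset.mem_coe.1 hb)
  · intro T hT
    rcases Finset.mem_insert.1 hT with rfl | hT
    · exact ⟨hS.2.1, (hc.2 _ t1).2.trans hTS⟩
    · exact hc.2 T hT
  · intro T hT U hU hTU
    rcases Finset.mem_insert.1 hT with hT1 | hT1 <;> rcases Finset.mem_insert.1 hU with hU1 | hU1
    · rw [hT1, hU1]; exact le_normalizer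
    · have : U = T := le_antisymm (hT1 ▸ hle U hU1) hTU
      rw [this]; exact le_normalizer
    · rw [hU1]; exact hSn T hT1
    · exact hn T hT1 U hU1 hTU
  · apply top_eq _ _ (Finset.mem_insert_self _ _)
    intro T hT
    rcases Finset.mem_insert.1 hT with rfl | hT
    · exact le_rfl
    · exact hle T hT
  · rw [Stab_insert]
    exact mono p hS (le_inf hS.1 le_normalizer) inf_le_left

end Cfsg.Agent.Lib.H11CaExt
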