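import Cfsg.Agent.Lib.H11CaTop
import Cfsg.Agent.Lib.H11CaSylB

/-! # Project 4088, piece Res (60 min) -/

set_option autoImplicit false

namespace Cfsg.Agent.Lib.H11CaRes

open Subgroup Cfsg.Agent.Lib.H11CaDefs Cfsg.Agent.Lib.H11CaTop Cfsg.Agent.Lib.H11CaSylB

variable {G : Type*} [Group G] [Finite G]

open Classical in
/-- **Removing the top of a normal chain whose top is Sylow in the stabilizer.** -/
theorem res_spec (p : ℕ) [Fact p.Prime] (H : Subgroup G) (c : Finset (Subgroup G))
    (hc : IsCh p H c) (hn : IsN c) (h2 : 2 ≤ c.card) (hS : IsSyl p (top c) (Stab c)) :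
    IsCh p H (c.erase (top c)) ∧ IsN (c.erase (top c)) ∧ (c.erase (top c)).Nonempty ∧
      IsSyl p (top c) (Stab (c.erase (top c))) ∧ top c ≠ top (c.erase (top c)) ∧
      ¬ IsSyl p (top (c.erase (top c))) (Stab (c.erase (top c))) ∧
      insert (top c) (c.erase (top c)) = c := by
  have hne : c.Nonempty := Finset.card_pos.1 (by omega)
  obtain ⟨t1, t2⟩ := top_spec c hne hc.1
  have hins : insert (top c) (c.erase (top c)) = c := Finset.insert_erase t1
  have hne0 : (c.erase (top c)).Nonempty := by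
    apply Finset.card_pos.1
    rw [Finset.card_erase_of_mem t1]
    omega
  have hch0 : IsCh p H (c.erase (top c)) :=
    ⟨hc.1.mono (by intro x hx; exact Finset.mem_coe.2 (Finset.mem_of_mem_erase (Finset.mem_coe.1 hx))),
      fun T hT => hc.2 T (Finset.mem_of_mem_erase hT)⟩
  have hn0 : IsN (c.erase (top c)) := fun T hT U hU hTU =>
    hn T (Finset.mem_of_mem_erase hT) U (Finset.mem_of_mem_erase hU) hTU
  have hst : Stab c = Stab (c.erase (top c)) ⊓ normalizer (top c : Set G) := by
    rw [← Stab_insert, hins]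
  have hS0 : IsSyl p (top c) (Stab (c.erase (top c))) := by
    apply of_normalizer p
    rw [← hst]; exact hS
  obtain ⟨u1, u2⟩ := top_spec _ hne0 hch0.1
  have hneq : top c ≠ top (c.erase (top c)) := (Finset.ne_of_mem_erase u1).symm
  refine ⟨hch0, hn0, hne0, hS0, hneq, ?_, hins⟩
  intro h
  exact hneq (h.2.2 (top c) hS0.2.1 (t2 _ (Finset.mem_of_mem_erase u1)) hS0.1)

end Cfsg.Agent.Lib.H11CaRes
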