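import Cfsg.Agent.Lib.H11CaExt
import Cfsg.Agent.Lib.H11CaRes

/-! # Project 4088, piece Fib (75 min) -/

set_option autoImplicit false

namespace Cfsg.Agent.Lib.H11CaFib

open Subgroup Cfsg.Agent.Lib.H11CaDefs Cfsg.Agent.Lib.H11CaTop Cfsg.Agent.Lib.H11CaSylB
  Cfsg.Agent.Lib.H11CaExt Cfsg.Agent.Lib.H11CaRes

variable {G : Type*} [Group G] [Finite G]

open Classical in
/-- normal chains whose top is not Sylow in the stabilizer -/
noncomputable def AA (p : ℕ) (H : Subgroup G) : Finset (Finset (Subgroup G)) :=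
  (NCh p H).filter (fun c => c.Nonempty ∧ ¬ IsSyl p (top c) (Stab c))

open Classical in
/-- normal chains of length `≥ 2` whose top is Sylow in the stabilizer -/
noncomputable def BB (p : ℕ) (H : Subgroup G) : Finset (Finset (Subgroup G)) :=
  (NCh p H).filter (fun c => 2 ≤ c.card ∧ IsSyl p (top c) (Stab c))

open Classical in
/-- **The weights of the extensions of `c₀ ∈ AA` add up to `- wt c₀`.** -/
theorem sum_fibre (p : ℕ) [Fact p.Prime] (H : Subgroup G) (c₀ : Finset (Subgroup G))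
    (h : c₀ ∈ AA p H) :
    ∑ c ∈ (BB p H).filter (fun c => c.erase (top c) = c₀), wt c = - wt c₀ := by
  obtain ⟨h0, hne, hnS⟩ := Finset.mem_filter.1 h
  obtain ⟨hc, hn⟩ := mem_NCh.1 h0
  have hext : ∀ S ∈ Syl p (Stab c₀), S ∉ c₀ ∧ IsCh p H (insert S c₀) ∧ IsN (insert S c₀) ∧
      top (insert S c₀) = S ∧ IsSyl p S (Stab (insert S c₀)) := by
    intro S hS
    have hS' := mem_Syl.1 hS
    have hST : S ≠ top c₀ := fun h => hnS (h ▸ hS')
    exact ext_spec p H c₀ hc hn hne S hS' hST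
  have himg : (BB p H).filter (fun c => c.erase (top c) = c₀) =
      (Syl p (Stab c₀)).image (fun S => insert S c₀) := by
    ext c
    simp only [Finset.mem_filter, Finset.mem_image]
    constructor
    · rintro ⟨hcB, hce⟩
      obtain ⟨hcN, h2, hS⟩ := Finset.mem_filter.1 hcB
      obtain ⟨hcc, hcn⟩ := mem_NCh.1 hcN
      obtain ⟨r1, r2, r3, r4, r5, r6, r7⟩ := res_spec p H c hcc hcn h2 hS
      refine ⟨top c, mem_Syl.2 (hce ▸ r4), ?_⟩
      rw [← hce]; exact r7
    · rintro ⟨S, hS, rfl⟩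
      obtain ⟨e1, e2, e3, e4, e5⟩ := hext S hS
      refine ⟨Finset.mem_filter.2 ⟨mem_NCh.2 ⟨e2, e3⟩, ?_, ?_⟩, ?_⟩
      · rw [Finset.card_insert_of_notMem e1]
        have := Finset.card_pos.2 hne
        omega
      · rw [e4]; exact e5
      · rw [e4, Finset.erase_insert e1]
  rw [himg, Finset.sum_image]
  · have hterm : ∀ S ∈ Syl p (Stab c₀), wt (insert S c₀) =
        - sg c₀ * ((Nat.card ↥(Stab c₀ ⊓ normalizer (S : Set G)) : ℕ) : ℤ) := by
      intro S hS
      obtain ⟨e1, e2, e3, e4, e5⟩ := hext S hS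
      unfold wt sg
      rw [Finset.card_insert_of_notMem e1, pow_succ, Stab_insert]
      ring
    rw [Finset.sum_congr rfl hterm, ← Finset.mul_sum, ← Nat.cast_sum, sum_card_normalizer]
    unfold wt
    ring
  · intro S hS S' hS' hSS
    have e4 := (hext S hS).2.2.2.1
    have e4' := (hext S' hS').2.2.2.1
    simp only at hSS
    rw [← e4, hSS, e4']

open Classical in
/-- `c ↦ c.erase (top c)` maps `BB` to `AA` (`res_spec`, `mem_NCh`). -/
theorem maps_to (p : ℕ) [Fact p.Prime] (H : Subgroup G) (c : Finset (Subgroup G))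
    (h : c ∈ BB p H) : c.erase (top c) ∈ AA p H := by
  obtain ⟨hcN, h2, hS⟩ := Finset.mem_filter.1 h
  obtain ⟨hcc, hcn⟩ := mem_NCh.1 hcN
  obtain ⟨r1, r2, r3, r4, r5, r6, r7⟩ := res_spec p H c hcc hcn h2 hS
  exact Finset.mem_filter.2 ⟨mem_NCh.2 ⟨r1, r2⟩, r3, r6⟩

end Cfsg.Agent.Lib.H11CaFib
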