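import Cfsg.Agent.Lib.H11CaDefs

/-! # Project 4088 wave 2, piece FixQ -/

set_option autoImplicit false

namespace Cfsg.Agent.Lib.H11CaFixQ

open Subgroup Cfsg.Agent.Lib.H11CaDefs

variable {G : Type*} [Group G]

theorem mem_iff (H B M M' : Subgroup G) [hM : M.Normal] [hM' : M'.Normal] (hB : B ⊓ M' = M) (x₀ : G)
    (hx₀ : x₀ ∈ Lam H B) (m : G) (hm : m ∈ M') :
    x₀ * m ∈ Lam H B ↔ x₀ * m * x₀⁻¹ ∈ Cen H M M' := by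
  have hu : x₀ * m * x₀⁻¹ ∈ M' := hM'.conj_mem m hm x₀
  -- per-element statement
  have key : ∀ h ∈ H, ((x₀ * m)⁻¹ * h * (x₀ * m) ∈ B ↔
      h⁻¹ * (x₀ * m * x₀⁻¹) * h⁻¹⁻¹ * (x₀ * m * x₀⁻¹)⁻¹ ∈ M) := by
    intro h hh
    have hk : x₀⁻¹ * h * x₀ ∈ B := hx₀ h hh
    set k := x₀⁻¹ * h * x₀ with hkdef
    have e1 : (x₀ * m)⁻¹ * h * (x₀ * m) = k * (k⁻¹ * m⁻¹ * k * m) := by
      rw [hkdef]; group
    have hw : k⁻¹ * m⁻¹ * k * m ∈ M' := by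
      have : k⁻¹ * m⁻¹ * k⁻¹⁻¹ ∈ M' := hM'.conj_mem _ (M'.inv_mem hm) _
      rw [inv_inv] at this
      exact M'.mul_mem this hm
    rw [e1, B.mul_mem_cancel_left hk]
    have e2 : (k⁻¹ * m⁻¹ * k * m ∈ B) ↔ k⁻¹ * m⁻¹ * k * m ∈ M := by
      rw [← hB, mem_inf]
      exact ⟨fun h => ⟨h, hw⟩, fun h => h.1⟩
    rw [e2]
    -- conjugate by x₀ and invert, conjugate
    have e3 : h⁻¹ * (x₀ * m * x₀⁻¹) * h⁻¹⁻¹ * (x₀ * m * x₀⁻¹)⁻¹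
        = (x₀ * m) * (k⁻¹ * m⁻¹ * k * m)⁻¹ * (x₀ * m)⁻¹ := by
      rw [hkdef]; group
    rw [e3]
    constructor
    · intro h1
      exact hM.conj_mem _ (M.inv_mem h1) _
    · intro h1
      have h2 := hM.conj_mem _ h1 (x₀ * m)⁻¹
      have e4 : (x₀ * m)⁻¹ * ((x₀ * m) * (k⁻¹ * m⁻¹ * k * m)⁻¹ * (x₀ * m)⁻¹) * (x₀ * m)⁻¹⁻¹
          = (k⁻¹ * m⁻¹ * k * m)⁻¹ := by group
      rw [e4] at h2
      exact (M.inv_mem_iff).1 h2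
  constructor
  · intro h1
    refine ⟨hu, fun h hh => ?_⟩
    have := (key h⁻¹ (H.inv_mem hh)).1 (h1 h⁻¹ (H.inv_mem hh))
    simpa using this
  · intro h1 h hh
    rw [key h hh]
    exact h1.2 h⁻¹ (H.inv_mem hh)

end Cfsg.Agent.Lib.H11CaFixQ
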