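import Cfsg.Agent.Lib.H11CaChainInf
import Cfsg.Agent.Lib.H11CaDefs

/-! # Project 4088, piece IJ -/

set_option autoImplicit false

namespace Cfsg.Agent.Lib.H11CaIJ

open Subgroup Cfsg.Agent.Lib.H11CaDefs

variable {G : Type*} [Group G]

theorem ij_spec (c : Finset (Subgroup G)) (hc : IsChain (· ≤ ·) (c : Set (Subgroup G)))
    (hn : ¬ IsN c) :
    ii c ∈ c ∧ jj c ∈ c ∧ ii c ≤ jj c ∧ ¬ jj c ≤ normalizer (ii c : Set G) ∧
      (∀ T ∈ c, T < ii c → ∀ U ∈ c, T ≤ U → U ≤ normalizer (T : Set G)) ∧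
      (∀ U ∈ c, ii c ≤ U → ¬ U ≤ normalizer (ii c : Set G) → jj c ≤ U) := by
  classical
  have hbadne : (bad c).Nonempty := by
    unfold IsN at hn
    push Not at hn
    obtain ⟨T, hT, U, hU, hTU, hUn⟩ := hn
    exact ⟨T, by unfold bad; exact Finset.mem_filter.2 ⟨hT, U, hU, hTU, hUn⟩⟩
  have hbadsub : (bad c : Set (Subgroup G)) ⊆ c := by
    intro T hT
    unfold bad at hT
    exact (Finset.mem_filter.1 (Finset.mem_coe.1 hT)).1
  have hi : ii c ∈ bad c :=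
    Cfsg.Agent.Lib.H11CaChainInf.sInf_mem (bad c) hbadne (hc.mono hbadsub)
  have hi' := hi
  unfold bad at hi'
  obtain ⟨hic, U, hU, hiU, hUn⟩ := Finset.mem_filter.1 hi'
  set F := c.filter (fun U => ii c ≤ U ∧ ¬ U ≤ normalizer (ii c : Set G)) with hF
  have hFne : F.Nonempty := ⟨U, Finset.mem_filter.2 ⟨hU, hiU, hUn⟩⟩
  have hFsub : (F : Set (Subgroup G)) ⊆ c := by
    intro T hT
    exact (Finset.mem_filter.1 (Finset.mem_coe.1 hT)).1
  have hj : jj c ∈ F := Cfsg.Agent.Lib.H11CaChainInf.sInf_mem F hFne (hc.mono hFsub)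
  obtain ⟨hjc, hij, hjn⟩ := Finset.mem_filter.1 hj
  refine ⟨hic, hjc, hij, hjn, ?_, ?_⟩
  · intro T hT hTi V hV hTV
    by_contra hVn
    have : T ∈ bad c := by unfold bad; exact Finset.mem_filter.2 ⟨hT, V, hV, hTV, hVn⟩
    have h1 : ii c ≤ T := sInf_le (Finset.mem_coe.2 this)
    exact absurd hTi (not_lt_of_ge h1)
  · intro V hV hiV hVn
    exact sInf_le (Finset.mem_coe.2 (Finset.mem_filter.2 ⟨hV, hiV, hVn⟩))

theorem ij_unique (c : Finset (Subgroup G)) (hc : IsChain (· ≤ ·) (c : Set (Subgroup G)))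
    (I J : Subgroup G) (hI : I ∈ c) (hJ : J ∈ c) (h1 : I ≤ J) (h2 : ¬ J ≤ normalizer (I : Set G))
    (h3 : ∀ T ∈ c, T < I → ∀ U ∈ c, T ≤ U → U ≤ normalizer (T : Set G))
    (h4 : ∀ U ∈ c, I ≤ U → ¬ U ≤ normalizer (I : Set G) → J ≤ U) :
    ii c = I ∧ jj c = J := by
  classical
  have hi : ii c = I := by
    apply le_antisymm
    · apply sInf_le
      unfold bad
      exact Finset.mem_coe.2 (Finset.mem_filter.2 ⟨hI, J, hJ, h1, h2⟩)
    · apply le_sInf
      intro T hT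
      unfold bad at hT
      obtain ⟨hTc, U, hU, hTU, hUn⟩ := Finset.mem_filter.1 (Finset.mem_coe.1 hT)
      by_cases hTI : T = I
      · rw [hTI]
      · rcases hc hTc hI hTI with h | h
        · exact absurd (h3 T hTc (lt_of_le_of_ne h hTI) U hU hTU) hUn
        · exact h
  refine ⟨hi, ?_⟩
  unfold jj
  rw [hi]
  apply le_antisymm
  · apply sInf_le
    exact Finset.mem_coe.2 (Finset.mem_filter.2 ⟨hJ, h1, h2⟩)
  · apply le_sInf
    intro U hU
    obtain ⟨hUc, hIU, hUn⟩ := Finset.mem_filter.1 (Finset.mem_coe.1 hU)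
    exact h4 U hUc hIU hUn

end Cfsg.Agent.Lib.H11CaIJ
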