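import Cfsg.Agent.Lib.H11CaDefs

/-! # Project 4088, piece LamH (60 min, PURE MATHLIB + Defs) -/

set_option autoImplicit false

namespace Cfsg.Agent.Lib.H11CaLamH

open Subgroup Cfsg.Agent.Lib.H11CaDefs

variable {G : Type*} [Group G] [Finite G]

/-- **`|{x | x⁻¹ H x ≤ B}| = #{conjugates of H inside B} · |N_G(H)|`** (any subgroup `B`).

SKETCH.  `ψ : Lam H B → {K // K ≤ B ∧ ∃ g, K = H.map (conj g)}`, `x ↦ H.map (MulAut.conj x⁻¹).toMonoidHom` (its elements are the `x⁻¹ * h * x`: `Subgroup.mem_map`, `MulAut.conj_apply`, `inv_inv`).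
Surjective: `K = H.map (conj g) ≤ B` is `ψ g⁻¹`.  Fibres: `H.map (conj x⁻¹) = H.map (conj y⁻¹) ↔ x * y⁻¹... ∈ normalizer H`, precisely `y = n * x`‑type cosets of `N_G(H)`:
`H.map (conj (n * x)⁻¹) = (H.map (conj n⁻¹)).map (conj x⁻¹) = H.map (conj x⁻¹)` for `n ∈ normalizer H`.  So an equivalence
`Lam H B ≃ {K // …} × normalizer H`, `(K, n) ↦ n * x_K` with a chosen `x_K`, `ψ x_K = K`; `Nat.card_prod`. -/
theorem card_Lam (H B : Subgroup G) :
    Nat.card (Lam H B) =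
      Nat.card {K : Subgroup G // K ≤ B ∧ ∃ g : G, K = H.map (MulAut.conj g).toMonoidHom} *
        Nat.card (Subgroup.normalizer (H : Set G)) := by
  classical
  have hmem : ∀ (x k : G), k ∈ H.map (MulAut.conj x⁻¹).toMonoidHom ↔ x * k * x⁻¹ ∈ H := by
    intro x k
    constructor
    · rintro ⟨h, hh, rfl⟩
      have e : x * ((MulAut.conj x⁻¹).toMonoidHom h) * x⁻¹ = h := by
        simp [MulAut.conj_apply, mul_assoc]
      rw [e]; exact hh
    · intro hk
      refine ⟨x * k * x⁻¹, hk, ?_⟩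
      simp [MulAut.conj_apply, mul_assoc]
  have hLam : ∀ x : G, x ∈ Lam H B ↔ H.map (MulAut.conj x⁻¹).toMonoidHom ≤ B := by
    intro x
    constructor
    · rintro hx _ ⟨h, hh, rfl⟩
      have := hx h hh
      simpa [MulAut.conj_apply] using this
    · intro hx h hh
      apply hx
      rw [hmem]
      have e : x * (x⁻¹ * h * x) * x⁻¹ = h := by group
      rw [e]; exact hh
  have hex : ∀ K : {K : Subgroup G // K ≤ B ∧ ∃ g : G, K = H.map (MulAut.conj g).toMonoidHom},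
      ∃ x : G, H.map (MulAut.conj x⁻¹).toMonoidHom = K.1 := by
    rintro ⟨K, _, g, rfl⟩
    exact ⟨g⁻¹, by rw [inv_inv]⟩
  choose xK hxK using hex
  have hn : ∀ (n x : G), n ∈ Subgroup.normalizer (H : Set G) →
      H.map (MulAut.conj (n * x)⁻¹).toMonoidHom = H.map (MulAut.conj x⁻¹).toMonoidHom := by
    intro n x hn
    ext k
    rw [hmem, hmem, Subgroup.mem_normalizer_iff.1 hn (x * k * x⁻¹)]
    have e : n * x * k * (n * x)⁻¹ = n * (x * k * x⁻¹) * n⁻¹ := by group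
    rw [e]
  have hn2 : ∀ (x y : G), H.map (MulAut.conj x⁻¹).toMonoidHom = H.map (MulAut.conj y⁻¹).toMonoidHom →
      x * y⁻¹ ∈ Subgroup.normalizer (H : Set G) := by
    intro x y hxy
    rw [Subgroup.mem_normalizer_iff]
    intro h
    have h1 := hmem x (y⁻¹ * h * y)
    have h2 := hmem y (y⁻¹ * h * y)
    rw [hxy] at h1
    have e1 : x * (y⁻¹ * h * y) * x⁻¹ = x * y⁻¹ * h * (x * y⁻¹)⁻¹ := by group
    have e2 : y * (y⁻¹ * h * y) * y⁻¹ = h := by group
    rw [e1] at h1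
    rw [e2] at h2
    exact h2.symm.trans h1
  have e : {K : Subgroup G // K ≤ B ∧ ∃ g : G, K = H.map (MulAut.conj g).toMonoidHom} ×
      (Subgroup.normalizer (H : Set G)) ≃ Lam H B :=
    { toFun := fun a => ⟨a.2.1 * xK a.1, by
        rw [hLam, hn _ _ a.2.2, hxK]
        exact a.1.2.1⟩
      invFun := fun x => (⟨H.map (MulAut.conj x.1⁻¹).toMonoidHom, (hLam x.1).1 x.2, x.1⁻¹, rfl⟩,
        ⟨x.1 * (xK ⟨H.map (MulAut.conj x.1⁻¹).toMonoidHom, (hLam x.1).1 x.2, x.1⁻¹, rfl⟩)⁻¹,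
          hn2 _ _ (hxK ⟨H.map (MulAut.conj x.1⁻¹).toMonoidHom, (hLam x.1).1 x.2, x.1⁻¹, rfl⟩).symm⟩)
      left_inv := fun a => by
        have h1 : H.map (MulAut.conj (a.2.1 * xK a.1)⁻¹).toMonoidHom = a.1.1 := by
          rw [hn _ _ a.2.2, hxK]
        have h2 : (⟨H.map (MulAut.conj (a.2.1 * xK a.1)⁻¹).toMonoidHom,
            (hLam (a.2.1 * xK a.1)).1 (by rw [hLam, h1]; exact a.1.2.1), (a.2.1 * xK a.1)⁻¹, rfl⟩ :
            {K : Subgroup G // K ≤ B ∧ ∃ g : G, K = H.map (MulAut.conj g).toMonoidHom}) = a.1 :=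
          Subtype.ext h1
        apply Prod.ext
        · exact h2
        · apply Subtype.ext
          show a.2.1 * xK a.1 * (xK _)⁻¹ = a.2.1
          rw [h2]
          group
      right_inv := fun x => by
        apply Subtype.ext
        show x.1 * (xK _)⁻¹ * xK _ = x.1
        group }
  rw [← Nat.card_prod]
  exact (Nat.card_congr e).symm

end Cfsg.Agent.Lib.H11CaLamH
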