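import Cfsg.Agent.Lib.H11CaDefs

/-! # Project 4088, piece LamP (60 min, PURE MATHLIB + Defs) -/

set_option autoImplicit false

namespace Cfsg.Agent.Lib.H11CaLamP

open Subgroup Cfsg.Agent.Lib.H11CaDefs

variable {G : Type*} [Group G] [Finite G]

/-- **`|{x | x⁻¹ H x ≤ P}| = #{Q ∈ Syl_p(G) | H ≤ Q} · |N_G(P)|`.**

SKETCH.  `φ : Lam H P → {Q : Sylow p G // H ≤ Q}`, `x ↦ x • P` (`Sylow` has the conjugation action `MulAut.conj x • P`; `Sylow.smul_def`, `Sylow.coe_subgroup_smul`/`Sylow.pointwise_smul_def`;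
`h ∈ x • P ↔ x⁻¹ * h * x ∈ P`: `Subgroup.mem_pointwise_smul_iff_inv_smul_mem`, `MulAut.smul_def`, `MulAut.conj_inv_apply`/`simp`).
`φ` is surjective (Sylow conjugacy: `MulAction.exists_smul_eq G P Q`), and each fibre `{x | x • P = Q} = x₀ · N_G(P)` has `|N_G(P)|` elements (`Sylow.smul_eq_iff_mem_normalizer`).
Count: `Nat.card (Lam H P) = ∑ over Q of fibre cards` (`Nat.card_sigma`/`Equiv.sigmaFiberEquiv φ`, or build directly an equivalence
`Lam H P ≃ {Q // H ≤ Q} × normalizer P` choosing `x_Q` with `x_Q • P = Q`: `(Q, n) ↦ x_Q * n`), `Nat.card_prod`. -/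
theorem card_Lam (p : ℕ) [Fact p.Prime] (H : Subgroup G) (P : Sylow p G) :
    Nat.card (Lam H (P : Subgroup G)) =
      Nat.card {Q : Sylow p G // H ≤ (Q : Subgroup G)} *
        Nat.card (Subgroup.normalizer ((P : Subgroup G) : Set G)) := by
  classical
  have hmem : ∀ (x h : G), h ∈ ((x • P : Sylow p G) : Subgroup G) ↔ x⁻¹ * h * x ∈ (P : Subgroup G) := by
    intro x h
    rw [Sylow.smul_def, Sylow.pointwise_smul_def, Subgroup.mem_pointwise_smul_iff_inv_smul_mem,
      MulAut.smul_def]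
    simp
  have hLam : ∀ x : G, x ∈ Lam H (P : Subgroup G) ↔ H ≤ ((x • P : Sylow p G) : Subgroup G) := by
    intro x
    constructor
    · intro hx h hh
      exact (hmem x h).2 (hx h hh)
    · intro hx h hh
      exact (hmem x h).1 (hx hh)
  choose xQ hxQ using fun Q : Sylow p G => MulAction.exists_smul_eq G P Q
  have e : {Q : Sylow p G // H ≤ (Q : Subgroup G)} × (Subgroup.normalizer ((P : Subgroup G) : Set G))
      ≃ Lam H (P : Subgroup G) :=
    { toFun := fun a => ⟨xQ a.1.1 * a.2.1, by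
        rw [hLam, mul_smul, Sylow.smul_eq_iff_mem_normalizer.2 a.2.2, hxQ]
        exact a.1.2⟩
      invFun := fun x => (⟨x.1 • P, (hLam x.1).1 x.2⟩, ⟨(xQ (x.1 • P))⁻¹ * x.1, by
        apply Sylow.smul_eq_iff_mem_normalizer.1
        rw [mul_smul, inv_smul_eq_iff, hxQ]⟩)
      left_inv := fun a => by
        have h1 : (xQ a.1.1 * a.2.1) • P = a.1.1 := by
          rw [mul_smul, Sylow.smul_eq_iff_mem_normalizer.2 a.2.2, hxQ]
        apply Prod.ext
        · exact Subtype.ext h1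
        · apply Subtype.ext
          show (xQ ((xQ a.1.1 * a.2.1) • P))⁻¹ * (xQ a.1.1 * a.2.1) = a.2.1
          rw [h1]
          group
      right_inv := fun x => by
        apply Subtype.ext
        show xQ (x.1 • P) * ((xQ (x.1 • P))⁻¹ * x.1) = x.1
        group }
  rw [← Nat.card_prod]
  exact (Nat.card_congr e).symm

end Cfsg.Agent.Lib.H11CaLamP
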