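import Cfsg.Agent.Lib.H11CaIJ

/-! # Project 4088, piece MMp -/

set_option autoImplicit false

namespace Cfsg.Agent.Lib.H11CaMMp

open Subgroup Cfsg.Agent.Lib.H11CaDefs Cfsg.Agent.Lib.H11CaIJ

variable {G : Type*} [Group G] [Finite G]

/-- normalizers grow in `p`-groups -/
theorem lt_inf_normalizer (p : ℕ) [Fact p.Prime] {I J : Subgroup G} (hJ : IsPGroup p J)
    (hIJ : I < J) : I < J ⊓ normalizer (I : Set G) := by
  have hnil : Group.IsNilpotent J := hJ.isNilpotent
  have hcond := Group.normalizerCondition_of_isNilpotent (G := J)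
  have hlt : I.subgroupOf J < ⊤ := by
    rw [lt_top_iff_ne_top]
    intro h
    rw [subgroupOf_eq_top] at h
    exact absurd hIJ (not_lt_of_ge h)
  have h1 := hcond (I.subgroupOf J) hlt
  obtain ⟨x, hx, hxn⟩ := SetLike.exists_of_lt h1
  refine lt_of_le_of_ne (le_inf hIJ.le le_normalizer) ?_
  intro heq
  apply hxn
  rw [mem_subgroupOf, heq]
  refine ⟨x.2, ?_⟩
  show (x : G) ∈ normalizer (I : Set G)
  rw [mem_normalizer_iff] at hx ⊢
  intro y
  constructor
  · intro hy
    have := (hx ⟨y, hIJ.le hy⟩).1 (by rw [mem_subgroupOf]; exact hy)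
    rw [mem_subgroupOf] at this
    simpa using this
  · intro hy
    have hyJ : y ∈ J := by
      have h2 : (x : G) * y * (x : G)⁻¹ ∈ J := hIJ.le hy
      have : y = (x : G)⁻¹ * ((x : G) * y * (x : G)⁻¹) * (x : G) := by group
      rw [this]
      exact J.mul_mem (J.mul_mem (J.inv_mem x.2) h2) x.2
    have := (hx ⟨y, hyJ⟩).2 (by rw [mem_subgroupOf]; simpa using hy)
    rw [mem_subgroupOf] at this
    exact this

theorem mm_spec (p : ℕ) [Fact p.Prime] (H : Subgroup G) (c : Finset (Subgroup G))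
    (hc : IsCh p H c) (hn : ¬ IsN c) :
    ii c < MM c ∧ MM c < jj c ∧ (IsPGroup p (MM c) ∧ H ≤ MM c) ∧
      (∀ U ∈ c, U ≤ MM c ∨ jj c ≤ U) ∧ Stab c ≤ normalizer (MM c : Set G) := by
  obtain ⟨hI, hJ, hIJ, hJn, h5, h6⟩ := ij_spec c hc.1 hn
  have hIJ' : ii c < jj c := lt_of_le_of_ne hIJ (fun h => hJn (h ▸ le_normalizer))
  have h1 : ii c < MM c := lt_inf_normalizer p (hc.2 _ hJ).1 hIJ'
  have h2 : MM c < jj c := lt_of_le_of_ne inf_le_left (fun h => hJn (h ▸ inf_le_right))
  refine ⟨h1, h2, ⟨(hc.2 _ hJ).1.to_le h2.le, (hc.2 _ hI).2.trans h1.le⟩, ?_, ?_⟩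
  · intro U hU
    by_cases hUI : U = ii c
    · left; rw [hUI]; exact h1.le
    rcases hc.1 hU hI hUI with h | h
    · left; exact le_trans h h1.le
    · by_cases hUn : U ≤ normalizer (ii c : Set G)
      · by_cases hUJ : U = jj c
        · right; rw [hUJ]
        rcases hc.1 hU hJ hUJ with h' | h'
        · left; exact le_inf h' hUn
        · right; exact h'
      · right; exact h6 U hU h hUn
  · intro g hg
    have hgI := mem_Stab.1 hg _ hI
    have hgJ := mem_Stab.1 hg _ hJ
    rw [mem_normalizer_iff]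
    intro y
    unfold MM
    rw [mem_inf, mem_inf, ← (mem_normalizer_iff.1 hgJ) y]
    refine and_congr Iff.rfl ?_
    constructor
    · intro hy
      exact (normalizer (ii c : Set G)).mul_mem ((normalizer (ii c : Set G)).mul_mem hgI hy)
        ((normalizer (ii c : Set G)).inv_mem hgI)
    · intro hy
      have : y = g⁻¹ * (g * y * g⁻¹) * g := by group
      rw [this]
      exact (normalizer (ii c : Set G)).mul_mem ((normalizer (ii c : Set G)).mul_mem
        ((normalizer (ii c : Set G)).inv_mem hgI) hy) hgI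

end Cfsg.Agent.Lib.H11CaMMp
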