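import Cfsg.Agent.Lib.H11CaDefs

/-! # Project 4088, piece SylCount -/

set_option autoImplicit false

namespace Cfsg.Agent.Lib.H11CaSylCount

open Subgroup Cfsg.Agent.Lib.H11CaDefs

variable {G : Type*} [Group G] [Finite G]

theorem card_normalizer_eq (p : ℕ) [Fact p.Prime] (P Q : Sylow p G) :
    Nat.card ↥(normalizer ((Q : Subgroup G) : Set G)) =
      Nat.card ↥(normalizer ((P : Subgroup G) : Set G)) := by
  have h1 : Nat.card (Sylow p G) = (normalizer ((Q : Subgroup G) : Set G)).index :=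
    Sylow.card_eq_index_normalizer Q
  have h2 : Nat.card (Sylow p G) = (normalizer ((P : Subgroup G) : Set G)).index :=
    Sylow.card_eq_index_normalizer P
  have h3 := Subgroup.index_mul_card (normalizer ((Q : Subgroup G) : Set G))
  have h4 := Subgroup.index_mul_card (normalizer ((P : Subgroup G) : Set G))
  rw [← h1] at h3
  rw [← h2] at h4
  have hpos : 0 < Nat.card (Sylow p G) := Nat.card_pos
  exact Nat.eq_of_mul_eq_mul_left hpos (h3.trans h4.symm)

open Classical in
theorem sum_eq (p : ℕ) [Fact p.Prime] (H : Subgroup G) (P : Sylow p G) :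
    ∑ Q ∈ (Syl p (⊤ : Subgroup G)).filter (fun Q => H ≤ Q), Nat.card ↥(normalizer (Q : Set G)) =
      Nat.card {Q : Sylow p G // H ≤ (Q : Subgroup G)} *
        Nat.card (Subgroup.normalizer ((P : Subgroup G) : Set G)) := by
  have hconst : ∀ Q ∈ (Syl p (⊤ : Subgroup G)).filter (fun Q => H ≤ Q),
      Nat.card ↥(normalizer (Q : Set G)) =
        Nat.card (Subgroup.normalizer ((P : Subgroup G) : Set G)) := by
    intro Q hQ
    rw [Finset.mem_filter, mem_Syl] at hQ
    obtain ⟨⟨_, h2, h3⟩, _⟩ := hQ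
    let Q' : Sylow p G := ⟨Q, h2, fun {R} hR hQR => h3 R hR hQR le_top⟩
    exact card_normalizer_eq p P Q'
  rw [Finset.sum_congr rfl hconst, Finset.sum_const, smul_eq_mul]
  congr 1
  have : Fintype {Q : Sylow p G // H ≤ (Q : Subgroup G)} := Fintype.ofFinite _
  rw [Nat.card_eq_fintype_card, ← Finset.card_univ]
  symm
  refine Finset.card_bij (fun Q _ => ((Q : Sylow p G) : Subgroup G)) ?_ ?_ ?_
  · intro Q _
    rw [Finset.mem_filter, mem_Syl]
    refine ⟨⟨le_top, Q.1.isPGroup', fun R hR hQR _ => Q.1.is_maximal' hR hQR⟩, Q.2⟩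
  · intro Q _ Q' _ h
    exact Subtype.ext (Sylow.ext h)
  · intro Q hQ
    rw [Finset.mem_filter, mem_Syl] at hQ
    obtain ⟨⟨_, h2, h3⟩, h4⟩ := hQ
    exact ⟨⟨⟨Q, h2, fun {R} hR hQR => h3 R hR hQR le_top⟩, h4⟩, Finset.mem_univ _, rfl⟩

end Cfsg.Agent.Lib.H11CaSylCount
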