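import Cfsg.Agent.Lib.H11CaDouble
import Cfsg.Agent.Lib.H11CaE3
import Cfsg.Agent.Lib.H11CaE4
import Cfsg.Agent.Lib.H11CaSylCount
import Cfsg.Agent.Lib.H11CaLamP

/-!
# Project 4088: assembly of Casolo's formula
-/

set_option autoImplicit false

namespace Cfsg.Agent.Lib.H11CaMain

open Subgroup Cfsg.Agent.Lib.H11CaDefs

variable {G : Type*} [Group G] [Finite G]

/-- **Casolo.**  `|S_G(H)| = λ_G(H) |N_G(P)|`. -/
theorem card_SubN (p : ℕ) [Fact p.Prime] (H : Subgroup G) (hH : IsPGroup p H) (P : Sylow p G) :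
    Nat.card (SubN H) = Nat.card {Q : Sylow p G // H ≤ (Q : Subgroup G)} *
        Nat.card (Subgroup.normalizer ((P : Subgroup G) : Set G)) := by
  have h1 := Cfsg.Agent.Lib.H11CaDouble.sum_wt_Ch p H hH
  have h2 := Cfsg.Agent.Lib.H11CaE3.sum_Ch_eq_sum_NCh p H
  have h3 := Cfsg.Agent.Lib.H11CaE4.sum_wt_NCh p H
  have h4 := Cfsg.Agent.Lib.H11CaSylCount.sum_eq p H P
  rw [h2, h3] at h1
  have h5 : (Nat.card (SubN H) : ℤ) = ((Nat.card {Q : Sylow p G // H ≤ (Q : Subgroup G)} *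
        Nat.card (Subgroup.normalizer ((P : Subgroup G) : Set G)) : ℕ) : ℤ) := by
    rw [← h4, Nat.cast_sum]
    linarith
  exact_mod_cast h5

/-- `|S_G(H)| = |{x | x⁻¹ H x ≤ P}|` -/
theorem card_SubN_eq_Lam (p : ℕ) [Fact p.Prime] (H : Subgroup G) (hH : IsPGroup p H)
    (P : Sylow p G) : Nat.card (SubN H) = Nat.card (Lam H (P : Subgroup G)) := by
  rw [card_SubN p H hH P, Cfsg.Agent.Lib.H11CaLamP.card_Lam p H P]

end Cfsg.Agent.Lib.H11CaMain
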