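import Cfsg.Agent.Lib.H11CaDefs

/-! # Project 4088 wave 2, piece Meet -/

set_option autoImplicit false

namespace Cfsg.Agent.Lib.H11CaMeet

open Subgroup

variable {G : Type*} [Group G] [Finite G]

theorem inf_le (p : ℕ) [Fact p.Prime] (P : Sylow p G) (M M' : Subgroup G) [M.Normal] [M'.Normal]
    (hle : M ≤ M') (hidx : (M.relIndex M').Coprime p) : (P : Subgroup G) ⊓ M' ≤ M := by
  intro x hx
  obtain ⟨hxP, hxM'⟩ := hx
  obtain ⟨k, hk⟩ := P.isPGroup' ⟨x, hxP⟩
  have hk' : x ^ p ^ k = 1 := by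
    have := congrArg Subtype.val hk
    simpa using this
  set y : ↥M' ⧸ M.subgroupOf M' := QuotientGroup.mk' (M.subgroupOf M') ⟨x, hxM'⟩ with hy
  have h1 : orderOf y ∣ p ^ k := by
    apply orderOf_dvd_of_pow_eq_one
    rw [hy, ← map_pow]
    have : (⟨x, hxM'⟩ : ↥M') ^ p ^ k = 1 := Subtype.ext (by simpa using hk')
    rw [this, map_one]
  have h2 : orderOf y ∣ M.relIndex M' := by
    have := orderOf_dvd_natCard y
    exact this
  have h3 : orderOf y = 1 := Nat.eq_one_of_dvd_coprimes (hidx.pow_right k) h2 h1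
  rw [orderOf_eq_one_iff, hy] at h3
  have h4 := (QuotientGroup.eq_one_iff (N := M.subgroupOf M') (⟨x, hxM'⟩ : ↥M')).1 h3
  exact mem_subgroupOf.1 h4

theorem sup_inf (p : ℕ) [Fact p.Prime] (P : Sylow p G) (M M' : Subgroup G) [M.Normal] [M'.Normal]
    (hle : M ≤ M') (hidx : (M.relIndex M').Coprime p) : ((P : Subgroup G) ⊔ M) ⊓ M' = M := by
  apply le_antisymm
  · intro z hz
    obtain ⟨hz1, hz2⟩ := hz
    have hz1' : z ∈ (P : Subgroup G) ⊔ M := hz1
    rw [mem_sup_of_normal_right] at hz1'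
    have hz2 : z ∈ M' := hz2
    revert hz2
    obtain ⟨y, hy, m, hm, rfl⟩ := hz1'
    intro hz2
    have hyM' : y ∈ M' := by
      have : y = y * m * m⁻¹ := by group
      rw [this]
      exact M'.mul_mem hz2 (M'.inv_mem (hle hm))
    exact M.mul_mem (inf_le p P M M' hle hidx ⟨hy, hyM'⟩) hm
  · exact le_inf le_sup_right hle

theorem index_eq (p : ℕ) [Fact p.Prime] (P : Sylow p G) (M M' : Subgroup G) [M.Normal] [M'.Normal]
    (hle : M ≤ M') (hidx : (M.relIndex M').Coprime p) :
    ((P : Subgroup G) ⊔ M).index = ((P : Subgroup G) ⊔ M').index * M.relIndex M' := by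
  have hBB' : (P : Subgroup G) ⊔ M ≤ (P : Subgroup G) ⊔ M' := sup_le_sup_left hle _
  have h1 := relIndex_mul_index hBB'
  have h2 : (P : Subgroup G) ⊔ M' = ((P : Subgroup G) ⊔ M) ⊔ M' := by
    rw [sup_assoc, sup_eq_right.2 hle]
  have h3 : ((P : Subgroup G) ⊔ M).relIndex ((P : Subgroup G) ⊔ M') = M.relIndex M' := by
    rw [h2]
    set B : Subgroup G := (P : Subgroup G) ⊔ M with hB
    have hinf : M' ⊓ B = M := by rw [inf_comm]; exact sup_inf p P M M' hle hidx
    have a1 := relIndex_mul_relIndex ⊥ B (B ⊔ M') bot_le le_sup_left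
    have a2 := relIndex_mul_relIndex ⊥ M' (B ⊔ M') bot_le le_sup_right
    have a3 : M'.relIndex (B ⊔ M') = M.relIndex B := by
      rw [relIndex_sup_right, ← inf_relIndex_right, hinf]
    have a4 := relIndex_mul_relIndex ⊥ M B bot_le le_sup_right
    have a5 := relIndex_mul_relIndex ⊥ M M' bot_le hle
    simp only [relIndex_bot_left] at a1 a2 a4 a5
    rw [a3] at a2
    have hMpos : 0 < Nat.card M := Nat.card_pos
    have hBpos : 0 < Nat.card B := Nat.card_pos
    have htpos : 0 < M.relIndex B := by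
      rcases Nat.eq_zero_or_pos (M.relIndex B) with h | h
      · rw [h, mul_zero] at a4; omega
      · exact h
    have : Nat.card M * M.relIndex B * B.relIndex (B ⊔ M')
        = Nat.card M * M.relIndex B * M.relIndex M' := by
      calc Nat.card M * M.relIndex B * B.relIndex (B ⊔ M')
          = Nat.card ↥(B ⊔ M') := by rw [a4, a1]
        _ = Nat.card M * M.relIndex M' * M.relIndex B := by rw [← a2, ← a5]
        _ = Nat.card M * M.relIndex B * M.relIndex M' := by ring
    exact Nat.eq_of_mul_eq_mul_left (Nat.mul_pos hMpos htpos) this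
  rw [← h1, h3, mul_comm]

end Cfsg.Agent.Lib.H11CaMeet
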