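import Cfsg.Agent.Lib.H11CaDefs

/-! # Project 4088 wave 2, piece Move -/

set_option autoImplicit false

namespace Cfsg.Agent.Lib.H11CaMove

open Subgroup Cfsg.Agent.Lib.H11CaDefs
open scoped Pointwise

variable {G : Type*} [Group G] [Finite G]

theorem exists_move (p : ℕ) [Fact p.Prime] (H : Subgroup G) (hH : IsPGroup p H) (P : Sylow p G)
    (M' : Subgroup G) [hM' : M'.Normal] (x : G) (hx : x ∈ Lam H ((P : Subgroup G) ⊔ M')) :
    ∃ m₀ ∈ M', x * m₀ ∈ Lam H (P : Subgroup G) := by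
  set B' : Subgroup G := (P : Subgroup G) ⊔ M' with hB'
  set K : Subgroup G := H.map (MulAut.conj x⁻¹).toMonoidHom with hK
  have hKp : IsPGroup p K := hH.map _
  have hKB : K ≤ B' := by
    rintro _ ⟨h, hh, rfl⟩
    have := hx h hh
    simpa using this
  have hKp' : IsPGroup p (K.subgroupOf B') := by
    exact hKp.comap_subtype
  obtain ⟨Q, hQ⟩ := hKp'.exists_le_sylow
  let P' : Sylow p B' := Sylow.subtype P le_sup_left
  obtain ⟨b, hb⟩ := MulAction.exists_smul_eq B' Q P'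
  -- b • Q = P'
  have hconj : ∀ k ∈ K, (b : G) * k * (b : G)⁻¹ ∈ (P : Subgroup G) := by
    intro k hk
    have h1 : (⟨k, hKB hk⟩ : B') ∈ (Q : Subgroup B') := hQ (mem_subgroupOf.2 hk)
    have h2 : b * ⟨k, hKB hk⟩ * b⁻¹ ∈ ((b • Q : Sylow p B') : Subgroup B') := by
      rw [Sylow.coe_subgroup_smul]
      exact ⟨_, h1, rfl⟩
    rw [hb] at h2
    have h3 : b * ⟨k, hKB hk⟩ * b⁻¹ ∈ (P : Subgroup G).subgroupOf B' := h2
    rw [mem_subgroupOf] at h3
    simpa using h3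
  have hbB : (b : G) ∈ (P : Subgroup G) ⊔ M' := b.2
  rw [mem_sup_of_normal_right] at hbB
  obtain ⟨y, hy, m, hm, hym⟩ := hbB
  refine ⟨m⁻¹, M'.inv_mem hm, ?_⟩
  intro h hh
  have hk : x⁻¹ * h * x ∈ K := ⟨h, hh, by simp⟩
  have h1 := hconj _ hk
  rw [← hym] at h1
  have e : (x * m⁻¹)⁻¹ * h * (x * m⁻¹) = y⁻¹ * (y * m * (x⁻¹ * h * x) * (y * m)⁻¹) * y := by
    group
  rw [e]
  exact (P : Subgroup G).mul_mem ((P : Subgroup G).mul_mem ((P : Subgroup G).inv_mem hy) h1) hy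

end Cfsg.Agent.Lib.H11CaMove
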