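import Cfsg.Agent.Lib.H11CaDefs

/-! # Project 4088 wave 2, piece StepP (60 min, PURE MATHLIB) -/

set_option autoImplicit false

namespace Cfsg.Agent.Lib.H11CaStepP

open Subgroup

variable {G : Type*} [Group G] [Finite G]

theorem relIndex_dvd_index_of_normal_right (A N : Subgroup G) [N.Normal] :
    A.relIndex N ∣ A.index := by
  have h1 := Subgroup.relIndex_mul_relIndex ⊥ N (A ⊔ N) bot_le le_sup_right
  have h2 := Subgroup.relIndex_mul_relIndex ⊥ A (A ⊔ N) bot_le le_sup_left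
  have h3 := Subgroup.relIndex_mul_relIndex ⊥ (A ⊓ N) A bot_le inf_le_left
  have h4 := Subgroup.relIndex_mul_relIndex ⊥ (A ⊓ N) N bot_le inf_le_right
  rw [Subgroup.relIndex_sup_right] at h1
  rw [Subgroup.inf_relIndex_left] at h3
  rw [Subgroup.inf_relIndex_right] at h4
  have e : A.relIndex N = A.relIndex (A ⊔ N) := by
    have hpos : 0 < (⊥ : Subgroup G).relIndex (A ⊓ N) * N.relIndex A := by
      apply Nat.pos_of_ne_zero
      rw [h3, Subgroup.relIndex_bot_left]
      exact Nat.card_pos.ne'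
    apply Nat.eq_of_mul_eq_mul_left hpos
    calc (⊥ : Subgroup G).relIndex (A ⊓ N) * N.relIndex A * A.relIndex N
        = ((⊥ : Subgroup G).relIndex (A ⊓ N) * A.relIndex N) * N.relIndex A := by ring
      _ = (⊥ : Subgroup G).relIndex (A ⊔ N) := by rw [h4, h1]
      _ = (⊥ : Subgroup G).relIndex (A ⊓ N) * N.relIndex A * A.relIndex (A ⊔ N) := by rw [h3, h2]
  rw [e]
  exact Subgroup.relIndex_dvd_index_of_le le_sup_left

/-- **A `p`-factor does not change `P M`.**

SKETCH.  Enough: `M' ≤ P ⊔ M`.  Let `B := P ⊔ M`, `B' := P ⊔ M'`, `B ≤ B'`.  `B.relIndex B'` is prime to `p`: it divides `(P : Subgroup G).index` (`relIndex_dvd_index_of_le`‑type: `B.relIndex B' ∣ B.index ∣ P.index`,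
`Subgroup.index_dvd_of_le`, `Subgroup.relIndex_dvd_index_of_normal`… or via cards), and `¬ p ∣ P.index` (`Sylow.not_dvd_index'`/`Sylow.not_dvd_index`).
`B.relIndex B'` is a power of `p`: `B' = B ⊔ M'` with `M'` normal, so `B.relIndex B' = (B ⊓ M').relIndex M'` (`Subgroup.relIndex_sup_right`/`relIndex_sup_left`, `inf_relIndex_right`) which divides `M.relIndex M' = p ^ m`
(`Subgroup.relIndex_dvd_of_le_left`: `M ≤ B ⊓ M'`).  So it is `1` (`Nat.Coprime`, `Nat.dvd_prime_pow`), i.e. `B' ≤ B` (`Subgroup.relIndex_eq_one`).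
(Alternative: in `G ⧸ M` the normal `p`-subgroup `M'/M` lies in the Sylow subgroup `PM/M`.) -/
theorem sup_eq (p : ℕ) [Fact p.Prime] (P : Sylow p G) (M M' : Subgroup G) [M.Normal] [M'.Normal]
    (hle : M ≤ M') (hidx : ∃ m : ℕ, M.relIndex M' = p ^ m) :
    (P : Subgroup G) ⊔ M = (P : Subgroup G) ⊔ M' := by
  have hp : p.Prime := Fact.out
  obtain ⟨m, hm⟩ := hidx
  apply le_antisymm (sup_le_sup_left hle _)
  have h1 : (((P : Subgroup G) ⊓ M') ⊔ M).relIndex M' ∣ p ^ m := by
    rw [← hm]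
    exact Subgroup.relIndex_dvd_of_le_left M' le_sup_right
  have h2 : (((P : Subgroup G) ⊓ M') ⊔ M).relIndex M' ∣ (P : Subgroup G).index := by
    refine (Subgroup.relIndex_dvd_of_le_left M' (le_sup_left : (P : Subgroup G) ⊓ M' ≤ _)).trans ?_
    rw [Subgroup.inf_relIndex_right]
    exact relIndex_dvd_index_of_normal_right _ _
  have h3 : (((P : Subgroup G) ⊓ M') ⊔ M).relIndex M' = 1 := by
    obtain ⟨j, _, hj⟩ := (Nat.dvd_prime_pow hp).1 h1
    rcases Nat.eq_zero_or_pos j with rfl | hpos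
    · simpa using hj
    · exfalso
      apply P.not_dvd_index
      refine dvd_trans ?_ h2
      rw [hj]
      exact dvd_pow_self p hpos.ne'
  have h4 : M' ≤ ((P : Subgroup G) ⊓ M') ⊔ M := Subgroup.relIndex_eq_one.1 h3
  exact sup_le le_sup_left (h4.trans (sup_le (inf_le_left.trans le_sup_left) le_sup_right))

end Cfsg.Agent.Lib.H11CaStepP
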