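import Mathlib

/-! # Project 4088 wave 2, piece Tele -/

set_option autoImplicit false

namespace Cfsg.Agent.Lib.H11CaTele

theorem tele (n : ℕ) (f : Fin (n + 1) → ℕ) (d : Fin n → ℕ)
    (h : ∀ i : Fin n, f i.castSucc = f i.succ * d i) : f 0 = f (Fin.last n) * ∏ i, d i := by
  induction n with
  | zero => simp
  | succ n ih =>
    have h0 := h 0
    have := ih (fun i => f i.succ) (fun i => d i.succ) (fun i => by
      have := h i.succ
      rw [Fin.castSucc_succ] at *
      simpa using this)
    rw [Fin.prod_univ_succ]
    have e0 : f 0 = f (Fin.succ 0) * d 0 := by simpa using h0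
    rw [e0, this]
    simp only [Fin.succ_last]
    ring

end Cfsg.Agent.Lib.H11CaTele
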