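import Cfsg.Agent.Lib.H11CaMain
import Cfsg.Agent.Lib.H11CaStepP
import Cfsg.Agent.Lib.H11CaMove
import Cfsg.Agent.Lib.H11CaMeet
import Cfsg.Agent.Lib.H11CaFixQ
import Cfsg.Agent.Lib.H11CaCountQ
import Cfsg.Agent.Lib.H11CaCenDvd
import Cfsg.Agent.Lib.H11CaTele

/-!
# Project 4088 wave 2: the product formula along a normal series with `p`- and `p'`-factors
-/

set_option autoImplicit false

namespace Cfsg.Agent.Lib.H11CaMain2

open Subgroup Cfsg.Agent.Lib.H11CaDefs

variable {G : Type*} [Group G] [Finite G]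

omit [Finite G] in
theorem Lam_mono (H : Subgroup G) {B B' : Subgroup G} (h : B ≤ B') : Lam H B ⊆ Lam H B' :=
  fun _ hx k hk => h (hx k hk)

/-- the step for a `p'`-factor -/
theorem stepQ (p : ℕ) [Fact p.Prime] (H : Subgroup G) (hH : IsPGroup p H) (P : Sylow p G)
    (M M' : Subgroup G) [M.Normal] [M'.Normal] (hle : M ≤ M') (hidx : (M.relIndex M').Coprime p) :
    Nat.card (Lam H ((P : Subgroup G) ⊔ M)) * ((P : Subgroup G) ⊔ M).index =
      Nat.card (Lam H ((P : Subgroup G) ⊔ M')) * ((P : Subgroup G) ⊔ M').index *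
        (Nat.card (Cen H M M') / Nat.card M) := by
  have hmeet := Cfsg.Agent.Lib.H11CaMeet.sup_inf p P M M' hle hidx
  have hcount := Cfsg.Agent.Lib.H11CaCountQ.count H ((P : Subgroup G) ⊔ M) ((P : Subgroup G) ⊔ M') M M'
    (sup_le_sup_left hle _) le_sup_right
    (fun x hx => by
      obtain ⟨m₀, hm₀, h⟩ := Cfsg.Agent.Lib.H11CaMove.exists_move p H hH P M' x hx
      exact ⟨m₀, hm₀, Lam_mono H le_sup_left h⟩)
    (fun x₀ hx₀ m hm => Cfsg.Agent.Lib.H11CaFixQ.mem_iff H _ M M' hmeet x₀ hx₀ m hm)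
  have hind := Cfsg.Agent.Lib.H11CaMeet.index_eq p P M M' hle hidx
  obtain ⟨d, hd⟩ := Cfsg.Agent.Lib.H11CaCenDvd.card_dvd H M M' hle
  have hMpos : 0 < Nat.card M := Nat.card_pos
  have hM' : Nat.card M' = M.relIndex M' * Nat.card M := by
    have h1 := Subgroup.relIndex_mul_relIndex (⊥ : Subgroup G) M M' bot_le hle
    rw [Subgroup.relIndex_bot_left, Subgroup.relIndex_bot_left] at h1
    rw [← h1, mul_comm]
  rw [hd, Nat.mul_div_cancel_left _ hMpos, hind]
  rw [hd, hM'] at hcount
  have h2 : Nat.card (Lam H ((P : Subgroup G) ⊔ M)) * M.relIndex M' =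
      Nat.card (Lam H ((P : Subgroup G) ⊔ M')) * d := by
    apply Nat.eq_of_mul_eq_mul_right hMpos
    calc _ = Nat.card (Lam H ((P : Subgroup G) ⊔ M)) * (M.relIndex M' * Nat.card M) := by ring
      _ = _ := hcount
      _ = _ := by ring
  calc _ = (Nat.card (Lam H ((P : Subgroup G) ⊔ M)) * M.relIndex M') *
        ((P : Subgroup G) ⊔ M').index := by ring
    _ = _ := by rw [h2]; ring

/-- **The product formula for `|{x | x⁻¹ H x ≤ P}|`.** -/
theorem card_Lam_prod (p : ℕ) [Fact p.Prime] (H : Subgroup G) (hH : IsPGroup p H) (P : Sylow p G)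
    (n : ℕ) (M : Fin (n + 1) → Subgroup G) (h0 : M 0 = ⊥) (hn : M (Fin.last n) = ⊤)
    (hmono : Monotone M) (hnormal : ∀ i, (M i).Normal)
    (hfac : ∀ i : Fin n, (∃ m : ℕ, (M i.castSucc).relIndex (M i.succ) = p ^ m) ∨
      ((M i.castSucc).relIndex (M i.succ)).Coprime p) :
    Nat.card (Lam H (P : Subgroup G)) = Nat.card (P : Subgroup G) *
        ∏ i : Fin n, (if ((M i.castSucc).relIndex (M i.succ)).Coprime p then
          Nat.card (Cen H (M i.castSucc) (M i.succ)) / Nat.card (M i.castSucc) else 1) := by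
  have key := Cfsg.Agent.Lib.H11CaTele.tele n
    (fun i => Nat.card (Lam H ((P : Subgroup G) ⊔ M i)) * ((P : Subgroup G) ⊔ M i).index)
    (fun i => if ((M i.castSucc).relIndex (M i.succ)).Coprime p then
          Nat.card (Cen H (M i.castSucc) (M i.succ)) / Nat.card (M i.castSucc) else 1)
    (fun i => by
      have := hnormal i.castSucc
      have := hnormal i.succ
      have hle : M i.castSucc ≤ M i.succ := hmono (Fin.castSucc_lt_succ).le
      beta_reduce
      split_ifs with hc
      · exact stepQ p H hH P _ _ hle hc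
      · rcases hfac i with h | h
        · rw [Cfsg.Agent.Lib.H11CaStepP.sup_eq p P _ _ hle h, mul_one]
        · exact absurd h hc)
  beta_reduce at key
  rw [h0, hn, sup_bot_eq, sup_top_eq, Subgroup.index_top, mul_one] at key
  have htop : Nat.card (Lam H (⊤ : Subgroup G)) = Nat.card G := by
    have : Lam H (⊤ : Subgroup G) = Set.univ := by
      ext x; simp [Lam]
    rw [this, Nat.card_coe_set_eq, Set.ncard_univ]
  rw [htop, ← Subgroup.card_mul_index (P : Subgroup G)] at key
  have hpos : 0 < (P : Subgroup G).index := Nat.pos_of_ne_zero (Subgroup.index_ne_zero_of_finite)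
  apply Nat.eq_of_mul_eq_mul_right hpos
  rw [key]; ring

end Cfsg.Agent.Lib.H11CaMain2
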