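import Mathlib

/-! # Project 4088, piece Toggle -/

set_option autoImplicit false

namespace Cfsg.Agent.Lib.H11CaToggle

theorem sum_toggle {α : Type*} [DecidableEq α] (C : Finset (Finset α)) (b : α)
    (hins : ∀ c ∈ C, insert b c ∈ C) (hers : ∀ c ∈ C, c.erase b ∈ C) :
    ∑ c ∈ C, (-1 : ℤ) ^ c.card = 0 := by
  refine Finset.sum_involution (fun c _ => if b ∈ c then c.erase b else insert b c) ?_ ?_ ?_ ?_
  · intro c hc
    by_cases hb : b ∈ c
    · simp only [hb, if_true]
      have := Finset.card_erase_add_one hb
      rw [← this, pow_succ]
      ring
    · simp only [hb, if_false]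
      rw [Finset.card_insert_of_notMem hb, pow_succ]
      ring
  · intro c hc _ heq
    by_cases hb : b ∈ c
    · simp only [hb, if_true] at heq
      have : b ∈ c.erase b := by rw [heq]; exact hb
      exact Finset.notMem_erase b c this
    · simp only [hb, if_false] at heq
      exact hb (by rw [← heq]; exact Finset.mem_insert_self b c)
  · intro c hc
    by_cases hb : b ∈ c
    · simp only [hb, if_true]; exact hers c hc
    · simp only [hb, if_false]; exact hins c hc
  · intro c hc
    by_cases hb : b ∈ c
    · simp only [hb, if_true, Finset.notMem_erase, if_false]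
      exact Finset.insert_erase hb
    · simp only [hb, if_false, Finset.mem_insert_self, if_true]
      exact Finset.erase_insert hb

end Cfsg.Agent.Lib.H11CaToggle
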