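import Cfsg.Agent.Lib.H11CaSubnIff
import Cfsg.Agent.Lib.H11CaBot
import Cfsg.Agent.Lib.H11CaToggle

/-! # Project 4088, piece PerG (60 min) -/

set_option autoImplicit false

namespace Cfsg.Agent.Lib.H11CaPerG

open Subgroup Cfsg.Agent.Lib.H11CaDefs

open Classical in
/-- **The alternating number of `g`-invariant chains** (the empty chain included).

SKETCH.  `C := (Ch p H).filter (fun c => g ∈ Stab c)`; use `mem_Ch`, `mem_Stab`, `sg`.
* `g ∉ SubN H`: by `H11CaSubnIff.mem_SubN_iff` no `p`-subgroup `T ≥ H` is normalized by `g`, so a chain in `C` has no member: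
  `C = {∅}` (`Finset.eq_empty_iff_forall_notMem`; `∅ ∈ C` trivially), and the sum is `(-1)^0 = 1`.
* `g ∈ SubN H`: `H11CaBot.exists_least` gives the least such subgroup `B`.  `C` is closed under `insert B` (`B ≤ T` for every member
  `T` of a chain in `C`, so `IsChain.insert`/`isChain_insert`‑type lemma: `IsChain.insert hc (fun T hT _ => Or.inl (hB T ..))`) and under
  `erase B` (`IsChain.mono (Finset.erase_subset ..)`).  Conclude with `H11CaToggle.sum_toggle C B`. -/
theorem sum_fixed {G : Type*} [Group G] [Finite G] (p : ℕ) [Fact p.Prime] (H : Subgroup G)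
    (hH : IsPGroup p H) (g : G) :
    ∑ c ∈ (Ch p H).filter (fun c => g ∈ Stab c), sg c = if g ∈ SubN H then 0 else 1 := by
  by_cases hg : g ∈ SubN H
  · rw [if_pos hg]
    obtain ⟨B, hBp, hHB, hgB, hBmin⟩ :=
      H11CaBot.exists_least p H g ((H11CaSubnIff.mem_SubN_iff p H hH g).1 hg)
    refine H11CaToggle.sum_toggle _ B ?_ ?_
    · intro c hc
      rw [Finset.mem_filter, mem_Ch, mem_Stab] at hc ⊢
      obtain ⟨⟨hch, hmem⟩, hst⟩ := hc
      refine ⟨⟨?_, ?_⟩, ?_⟩
      · rw [Finset.coe_insert]
        exact hch.insert (fun T hT _ => Or.inl (hBmin T (hmem T hT).1 (hmem T hT).2 (hst T hT)))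
      · intro T hT
        rcases Finset.mem_insert.1 hT with rfl | hT
        · exact ⟨hBp, hHB⟩
        · exact hmem T hT
      · intro T hT
        rcases Finset.mem_insert.1 hT with rfl | hT
        · exact hgB
        · exact hst T hT
    · intro c hc
      rw [Finset.mem_filter, mem_Ch, mem_Stab] at hc ⊢
      obtain ⟨⟨hch, hmem⟩, hst⟩ := hc
      refine ⟨⟨?_, ?_⟩, ?_⟩
      · exact hch.mono (by exact_mod_cast Finset.erase_subset B c)
      · intro T hT
        exact hmem T (Finset.mem_of_mem_erase hT)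
      · intro T hT
        exact hst T (Finset.mem_of_mem_erase hT)
  · rw [if_neg hg]
    have hC : (Ch p H).filter (fun c => g ∈ Stab c) = {∅} := by
      ext c
      rw [Finset.mem_filter, mem_Ch, mem_Stab, Finset.mem_singleton]
      constructor
      · rintro ⟨⟨_, hmem⟩, hst⟩
        rw [Finset.eq_empty_iff_forall_notMem]
        intro T hT
        exact hg ((H11CaSubnIff.mem_SubN_iff p H hH g).2 ⟨T, (hmem T hT).1, (hmem T hT).2, hst T hT⟩)
      · rintro rfl
        refine ⟨⟨?_, ?_⟩, ?_⟩
        · simp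
        · intro T hT; simp at hT
        · intro T hT; simp at hT
    rw [hC, Finset.sum_singleton]
    simp [sg]

end Cfsg.Agent.Lib.H11CaPerG
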