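import Cfsg.Agent.Lib.H11CaDefs
import Cfsg.Agent.Lib.Helper27Core
import Cfsg.Agent.Lib.Helper52Subnormal

/-! # Project 4088, piece SubnIff (60 min) -/

set_option autoImplicit false

namespace Cfsg.Agent.Lib.H11CaSubnIff

open Subgroup Cfsg.Agent.Lib.H11CaDefs

/-- **`g` subnormalizes the `p`-subgroup `H` iff `g` normalizes some `p`-subgroup containing `H`.**

SKETCH.  `K := H ⊔ zpowers g`.
(→) `H.subgroupOf K` is a subnormal `p`-subgroup of the finite group `↥K`, so
`Cfsg.Agent.Lib.Helper27Core.subnormal_le_pCore` puts it in `O := Cfsg.pCore p ↥K`, a normal `p`-subgroup of `↥K`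
(look in Helper27Core for `pCore_normal`/`isPGroup_pCore`-type lemmas; `Cfsg.pCore` is the `sSup` of the normal
`p`-subgroups).  Take `T := O.map K.subtype`: a `p`-group (`IsPGroup.map`), contains `H`, and `g ∈ K` normalizes it
(`Subgroup.mem_normalizer_iff`; normality of `O` in `↥K`).
(←) Let `T` be a `p`-group, `H ≤ T`, `g ∈ normalizer T`.  Then `K ≤ normalizer T` (`sup_le`, `le_normalizer`,
`zpowers_le`), so `R := (T ⊓ K).subgroupOf K` (= `T.subgroupOf K`) is normal in `↥K`, hence subnormal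
(`Subgroup.Normal.isSubnormal`); it is a `p`-group, so every subgroup of `↥R` is subnormal in `↥R`
(`Cfsg.Agent.Lib.Helper52Subnormal.isSubnormal_of_isPGroup`), and `Subgroup.IsSubnormal.trans` (or `trans'`) gives that
`H.subgroupOf K ≤ R` is subnormal in `↥K`. -/
theorem mem_SubN_iff {G : Type*} [Group G] [Finite G] (p : ℕ) [Fact p.Prime] (H : Subgroup G)
    (hH : IsPGroup p H) (g : G) :
    g ∈ SubN H ↔ ∃ T : Subgroup G, IsPGroup p T ∧ H ≤ T ∧ g ∈ normalizer (T : Set G) := by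
  have hHK : H ≤ H ⊔ zpowers g := le_sup_left
  have hgK : g ∈ H ⊔ zpowers g := (le_sup_right : zpowers g ≤ H ⊔ zpowers g) (mem_zpowers g)
  constructor
  · intro hg
    have hsub : (H.subgroupOf (H ⊔ zpowers g)).IsSubnormal := hg
    have hp : IsPGroup p (H.subgroupOf (H ⊔ zpowers g)) := hH.comap_subtype
    obtain ⟨N, hN1, hN2, hN3⟩ :=
      (Cfsg.Agent.Lib.Helper27Core.radClass_pGroup (G := ↥(H ⊔ zpowers g)) p).subnormal hsub hp
    refine ⟨N.map (H ⊔ zpowers g).subtype, hN2.map _, ?_, ?_⟩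
    · intro h hh
      exact ⟨⟨h, hHK hh⟩, hN3 (mem_subgroupOf.2 hh), rfl⟩
    · rw [mem_normalizer_iff]
      intro x
      constructor
      · rintro ⟨y, hy, rfl⟩
        exact ⟨⟨g, hgK⟩ * y * ⟨g, hgK⟩⁻¹, hN1.conj_mem y hy _, rfl⟩
      · rintro ⟨y, hy, hyx⟩
        refine ⟨⟨g, hgK⟩⁻¹ * y * ⟨g, hgK⟩, by simpa using hN1.conj_mem y hy ⟨g, hgK⟩⁻¹, ?_⟩
        have hyx' : (y : G) = g * x * g⁻¹ := hyx
        show g⁻¹ * (y : G) * g = x
        rw [hyx']
        group
  · rintro ⟨T, hT, hHT, hgT⟩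
    have hKT : H ⊔ zpowers g ≤ normalizer (T : Set G) :=
      sup_le (hHT.trans le_normalizer) (by rwa [zpowers_le])
    have hRn : (T.subgroupOf (H ⊔ zpowers g)).Normal := normal_subgroupOf_of_le_normalizer hKT
    have hRp : IsPGroup p (T.subgroupOf (H ⊔ zpowers g)) := hT.comap_subtype
    show (H.subgroupOf (H ⊔ zpowers g)).IsSubnormal
    refine Subgroup.IsSubnormal.trans (K := T.subgroupOf (H ⊔ zpowers g)) (fun x hx => hHT hx) ?_
      hRn.isSubnormal
    exact Cfsg.Agent.Lib.Helper52Subnormal.isSubnormal_of_isPGroup hRp _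

end Cfsg.Agent.Lib.H11CaSubnIff
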