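import Cfsg.Agent.Lib.H11CaMMp

/-! # Project 4088, piece Tog (90 min, START FIRST) -/

set_option autoImplicit false

namespace Cfsg.Agent.Lib.H11CaTog

open Subgroup Cfsg.Agent.Lib.H11CaDefs Cfsg.Agent.Lib.H11CaIJ Cfsg.Agent.Lib.H11CaMMp

variable {G : Type*} [Group G] [Finite G]

theorem aux (p : ℕ) [Fact p.Prime] (H : Subgroup G) (c c' : Finset (Subgroup G))
    (hc : IsCh p H c) (hn : ¬ IsN c) (hsub : ∀ U ∈ c', U ∈ c ∨ U = MM c) (hI : ii c ∈ c')
    (hJ : jj c ∈ c') : IsCh p H c' ∧ ¬ IsN c' ∧ MM c' = MM c := by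
  obtain ⟨hIc, hJc, hIJ, hJn, h5, h6⟩ := ij_spec c hc.1 hn
  obtain ⟨hIM, hMJ, ⟨hMp, hHM⟩, hcomp, hstab⟩ := mm_spec p H c hc hn
  have hch : IsCh p H c' := by
    refine ⟨?_, ?_⟩
    · intro U hU V hV hne
      rcases hsub U hU with hU1 | hU1 <;> rcases hsub V hV with hV1 | hV1
      · exact hc.1 hU1 hV1 hne
      · rw [hV1]
        rcases hcomp U hU1 with h | h
        · left; exact h
        · right; exact hMJ.le.trans h
      · rw [hU1]
        rcases hcomp V hV1 with h | h
        · right; exact h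
        · left; exact hMJ.le.trans h
      · exact absurd (hU1.trans hV1.symm) hne
    · intro T hT
      rcases hsub T hT with h | h
      · exact hc.2 T h
      · rw [h]; exact ⟨hMp, hHM⟩
  have hMn : MM c ≤ normalizer (ii c : Set G) := inf_le_right
  have huniq := ij_unique c' hch.1 (ii c) (jj c) hI hJ hIJ hJn (by
    intro T hT hlt U hU hTU
    rcases hsub T hT with hT1 | hT1
    · rcases hsub U hU with hU1 | hU1
      · exact h5 T hT1 hlt U hU1 hTU
      · rw [hU1]
        exact hMJ.le.trans (h5 T hT1 hlt _ hJc (hlt.le.trans hIJ))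
    · rw [hT1] at hlt
      exact absurd hlt (lt_asymm hIM)) (by
    intro U hU hIU hUn
    rcases hsub U hU with hU1 | hU1
    · exact h6 U hU1 hIU hUn
    · rw [hU1] at hUn
      exact absurd hMn hUn)
  refine ⟨hch, fun h => hJn (h _ hI _ hJ hIJ), ?_⟩
  unfold MM
  rw [huniq.1, huniq.2]

theorem tog_spec (p : ℕ) [Fact p.Prime] (H : Subgroup G) (c : Finset (Subgroup G))
    (hc : IsCh p H c) (hn : ¬ IsN c) :
    IsCh p H (tog c) ∧ ¬ IsN (tog c) ∧ tog (tog c) = c ∧ sg (tog c) = - sg c ∧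
      Stab (tog c) = Stab c := by
  classical
  obtain ⟨hIc, hJc, hIJ, hJn, h5, h6⟩ := ij_spec c hc.1 hn
  obtain ⟨hIM, hMJ, ⟨hMp, hHM⟩, hcomp, hstab⟩ := mm_spec p H c hc hn
  by_cases hM : MM c ∈ c
  · have ht : tog c = c.erase (MM c) := by
      unfold tog; rw [if_pos hM]
    obtain ⟨a1, a2, a3⟩ := aux p H c (c.erase (MM c)) hc hn
      (fun U hU => Or.inl (Finset.mem_of_mem_erase hU))
      (Finset.mem_erase.2 ⟨hIM.ne, hIc⟩) (Finset.mem_erase.2 ⟨hMJ.ne', hJc⟩)
    rw [ht]
    refine ⟨a1, a2, ?_, ?_, ?_⟩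
    · unfold tog
      rw [a3, if_neg (Finset.notMem_erase _ _), Finset.insert_erase hM]
    · unfold sg
      have h1 : 0 < c.card := Finset.card_pos.2 ⟨_, hM⟩
      rw [Finset.card_erase_of_mem hM]
      obtain ⟨k, hk⟩ : ∃ k, c.card = k + 1 := ⟨c.card - 1, by omega⟩
      rw [hk, Nat.add_sub_cancel, pow_succ]
      ring
    · have hst := (mm_spec p H _ a1 a2).2.2.2.2
      rw [a3] at hst
      ext g
      rw [mem_Stab, mem_Stab]
      constructor
      · intro h T hT
        by_cases hTM : T = MM c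
        · rw [hTM]
          exact hst (mem_Stab.2 h)
        · exact h T (Finset.mem_erase.2 ⟨hTM, hT⟩)
      · intro h T hT
        exact h T (Finset.mem_of_mem_erase hT)
  · have ht : tog c = insert (MM c) c := by
      unfold tog; rw [if_neg hM]
    obtain ⟨a1, a2, a3⟩ := aux p H c (insert (MM c) c) hc hn
      (fun U hU => (Finset.mem_insert.1 hU).symm)
      (Finset.mem_insert_of_mem hIc) (Finset.mem_insert_of_mem hJc)
    rw [ht]
    refine ⟨a1, a2, ?_, ?_, ?_⟩
    · unfold tog
      rw [a3, if_pos (Finset.mem_insert_self _ _), Finset.erase_insert hM]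
    · unfold sg
      rw [Finset.card_insert_of_notMem hM, pow_succ]
      ring
    · ext g
      rw [mem_Stab, mem_Stab]
      constructor
      · intro h T hT
        exact h T (Finset.mem_insert_of_mem hT)
      · intro h T hT
        rcases Finset.mem_insert.1 hT with hTM | hTM
        · rw [hTM]
          exact hstab (mem_Stab.2 h)
        · exact h T hTM

end Cfsg.Agent.Lib.H11CaTog
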