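import Cfsg.Agent.Lib.H11CaChainInf
import Cfsg.Agent.Lib.H11CaDefs

/-! # Project 4088, piece Top (30 min, PURE MATHLIB + Defs) -/

set_option autoImplicit false

namespace Cfsg.Agent.Lib.H11CaTop

open Subgroup Cfsg.Agent.Lib.H11CaDefs

variable {G : Type*} [Group G]

/-- the top of a non-empty chain (`H11CaChainInf.sSup_mem`, `le_sSup`). -/
theorem top_spec (c : Finset (Subgroup G)) (hne : c.Nonempty)
    (hc : IsChain (· ≤ ·) (c : Set (Subgroup G))) : top c ∈ c ∧ ∀ T ∈ c, T ≤ top c :=
  ⟨H11CaChainInf.sSup_mem c hne hc, fun _ hT => le_sSup (Finset.mem_coe.2 hT)⟩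

/-- if `S ∈ c` is an upper bound of `c` then `top c = S` (`le_antisymm (sSup_le _) (le_sSup _)`). -/
theorem top_eq (c : Finset (Subgroup G)) (S : Subgroup G) (hS : S ∈ c) (h : ∀ T ∈ c, T ≤ S) :
    top c = S :=
  le_antisymm (sSup_le fun T hT => h T (Finset.mem_coe.1 hT)) (le_sSup (Finset.mem_coe.2 hS))

/-- in a normal chain the top lies in the stabilizer (`mem_Stab`, `IsN`, `top_spec`), and the stabilizer normalizes it. -/
theorem top_le_Stab (c : Finset (Subgroup G)) (hne : c.Nonempty)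
    (hc : IsChain (· ≤ ·) (c : Set (Subgroup G))) (hn : IsN c) :
    top c ≤ Stab c ∧ Stab c ≤ normalizer (top c : Set G) := by
  obtain ⟨h1, h2⟩ := top_spec c hne hc
  constructor
  · intro g hg
    rw [mem_Stab]
    intro T hT
    exact hn T hT _ h1 (h2 T hT) hg
  · intro g hg
    exact mem_Stab.1 hg _ h1

/-- stabilizer of `insert S c` (`ext g; simp [mem_Stab, and_comm]`). -/
theorem Stab_insert [DecidableEq (Subgroup G)] (c : Finset (Subgroup G)) (S : Subgroup G) :
    Stab (insert S c) = Stab c ⊓ normalizer (S : Set G) := by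
  ext g
  simp [mem_Stab, and_comm]

end Cfsg.Agent.Lib.H11CaTop
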