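import Cfsg.Agent.Lib.H11GhDefs

/-! # Project 4091 (Gheri), piece AMGM1 (45m) -/

set_option autoImplicit false

namespace Cfsg.Agent.Lib.H11GhAMGM1

open Subgroup Cfsg.Agent.Lib.H11GhDefs

/-- **AM-GM**, polynomial form.  PURE MATHLIB.
SKETCH.  `Fintype.ofFinite ι`, `finsum_eq_sum_of_fintype`, `finprod_eq_prod_of_fintype`, `m := Fintype.card ι` (`Nat.card_eq_fintype_card`).  If `m = 0` both sides are `1`.
`Real.inner_le_nnorm_mul_nnorm` is NOT needed: use `Real.geom_mean_le_arith_mean_weighted Finset.univ (fun _ => 1 / m) a` (weights `1/m`, sum `1`): `∏ a i ^ (1/m : ℝ) ≤ ∑ (1/m) * a i`.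
Raise to the power `m` (`pow_le_pow_left₀`), `Finset.prod_pow`, `← Real.rpow_natCast`, `← Real.rpow_mul (ha i)`, `one_div_mul_cancel`, `Real.rpow_one`; `← Finset.mul_sum`, `mul_pow`, `div_pow`; multiply by `m ^ m`.
(Alternatively `Real.geom_mean_le_arith_mean`, or induction.) -/
theorem amgm {ι : Type*} [Finite ι] (a : ι → ℝ) (ha : ∀ i, 0 ≤ a i) :
    (Nat.card ι : ℝ) ^ Nat.card ι * ∏ᶠ i, a i ≤ (∑ᶠ i, a i) ^ Nat.card ι := by
  classical
  haveI := Fintype.ofFinite ι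
  rw [finsum_eq_sum_of_fintype, finprod_eq_prod_of_fintype, Nat.card_eq_fintype_card]
  set m := Fintype.card ι with hm
  rcases Nat.eq_zero_or_pos m with h0 | hpos
  · haveI : IsEmpty ι := Fintype.card_eq_zero_iff.1 (hm ▸ h0)
    simp [h0]
  have hmR : (0 : ℝ) < m := by exact_mod_cast hpos
  have h2 := Real.geom_mean_le_arith_mean_weighted Finset.univ (fun _ : ι => (1 / (m : ℝ))) a
    (fun i _ => by positivity) (by
      rw [Finset.sum_const, Finset.card_univ, ← hm, nsmul_eq_mul]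
      field_simp) (fun i _ => ha i)
  have h3 : (∏ i, a i ^ (1 / (m : ℝ))) ^ m = ∏ i, a i := by
    rw [← Finset.prod_pow]
    apply Finset.prod_congr rfl
    intro i _
    rw [← Real.rpow_natCast, ← Real.rpow_mul (ha i), one_div_mul_cancel hmR.ne', Real.rpow_one]
  have h4 : (∏ i, a i ^ (1 / (m : ℝ))) ^ m ≤ (∑ i, 1 / (m : ℝ) * a i) ^ m :=
    pow_le_pow_left₀ (Finset.prod_nonneg (fun i _ => Real.rpow_nonneg (ha i) _)) h2 m
  rw [h3, ← Finset.mul_sum, mul_pow, div_pow, one_pow] at h4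
  have h5 : (0 : ℝ) < (m : ℝ) ^ m := by positivity
  calc (m : ℝ) ^ m * ∏ i, a i ≤ (m : ℝ) ^ m * (1 / (m : ℝ) ^ m * (∑ i, a i) ^ m) :=
        mul_le_mul_of_nonneg_left h4 h5.le
    _ = (∑ i, a i) ^ m := by field_simp

end Cfsg.Agent.Lib.H11GhAMGM1
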