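import Cfsg.Agent.Lib.H11GhAMGM1

/-! # Project 4091 (Gheri), piece AMGM2 (50m) -/

set_option autoImplicit false

namespace Cfsg.Agent.Lib.H11GhAMGM2

open Subgroup Cfsg.Agent.Lib.H11GhDefs

/-- **The final arithmetic.**  PURE MATHLIB + AMGM1.
SKETCH.  `m := Nat.card ι > 0`, `L := ∏ᶠ i, l i > 0`, `a i := 1 / (l i : ℝ) > 0`, `∏ᶠ a i = 1 / (L : ℝ)` (`finprod_eq_prod_of_fintype`, `Finset.prod_div_distrib`/`Finset.prod_inv_distrib`, `Nat.cast_prod`).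
`H11GhAMGM1.amgm a`: `m^m / L ≤ (∑ᶠ a)^m`; multiply by `n^m`: `n^m m^m ≤ u^m L` (in `ℝ`, `hu`, `mul_pow`, `div_le_iff₀`), hence in `ℕ` (`exact_mod_cast`): `(n * m)^m ≤ u^m * L`.
Raise to the power `p`: `(n m)^(m p) ≤ u^(m p) L^p ≤ u^(m p) n^m`.  Since `n^(m p) = n^m * n^(m (p-1))`, cancel `n^m > 0`: `(m^p n^(p-1))^m ≤ (u^p)^m`; conclude with `(Nat.pow_le_pow_iff_left (Nat.pos_iff_ne_zero.1 hm)).1` (`lt_of_pow_lt_pow_left`). -/
theorem final_arith (p : ℕ) (hp : 0 < p) {ι : Type*} [Finite ι] [Nonempty ι] (l : ι → ℕ)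
    (hl : ∀ i, 0 < l i) (n u : ℕ) (hn : 0 < n) (hprod : (∏ᶠ i, l i) ^ p ≤ n ^ Nat.card ι)
    (hu : (u : ℝ) = n * ∑ᶠ i, (1 / (l i : ℝ))) : Nat.card ι ^ p * n ^ (p - 1) ≤ u ^ p := by
  classical
  haveI := Fintype.ofFinite ι
  set m := Nat.card ι with hm
  have hmpos : 0 < m := Nat.card_pos
  set L := ∏ᶠ i, l i with hL
  have hL' : L = ∏ i, l i := finprod_eq_prod_of_fintype _
  have hLpos : 0 < L := by
    rw [hL']
    exact Finset.prod_pos (fun i _ => hl i)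
  have hLR : (0 : ℝ) < (L : ℝ) := by exact_mod_cast hLpos
  have h1 := Cfsg.Agent.Lib.H11GhAMGM1.amgm (fun i => 1 / (l i : ℝ)) (fun i => by positivity)
  have h2 : ∏ᶠ i, (1 / (l i : ℝ)) = 1 / (L : ℝ) := by
    rw [finprod_eq_prod_of_fintype, hL', Nat.cast_prod, Finset.prod_div_distrib]
    simp
  rw [h2, ← hm] at h1
  -- real inequality
  have h3 : ((n : ℝ) * m) ^ m ≤ (u : ℝ) ^ m * L := by
    rw [hu, mul_pow, mul_pow]
    have h4 : (m : ℝ) ^ m ≤ (∑ᶠ i, (1 / (l i : ℝ))) ^ m * L := by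
      rw [mul_one_div, div_le_iff₀ hLR] at h1
      exact h1
    calc (n : ℝ) ^ m * (m : ℝ) ^ m ≤ (n : ℝ) ^ m * ((∑ᶠ i, (1 / (l i : ℝ))) ^ m * L) :=
          mul_le_mul_of_nonneg_left h4 (by positivity)
      _ = (n : ℝ) ^ m * (∑ᶠ i, (1 / (l i : ℝ))) ^ m * L := by ring
  have h5 : (n * m) ^ m ≤ u ^ m * L := by exact_mod_cast h3
  have h6 : ((n * m) ^ m) ^ p ≤ (u ^ m) ^ p * n ^ m := by
    calc ((n * m) ^ m) ^ p ≤ (u ^ m * L) ^ p := Nat.pow_le_pow_left h5 p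
      _ = (u ^ m) ^ p * L ^ p := mul_pow _ _ _
      _ ≤ (u ^ m) ^ p * n ^ m := Nat.mul_le_mul_left _ hprod
  obtain ⟨k, rfl⟩ : ∃ k, p = k + 1 := ⟨p - 1, by omega⟩
  have h7 : n ^ m * (m ^ (k + 1) * n ^ k) ^ m ≤ n ^ m * (u ^ (k + 1)) ^ m := by
    calc n ^ m * (m ^ (k + 1) * n ^ k) ^ m = ((n * m) ^ m) ^ (k + 1) := by
          rw [mul_pow, mul_pow, mul_pow, ← pow_mul, ← pow_mul, ← pow_mul, ← pow_mul]
          have : n ^ (m * (k + 1)) = n ^ m * n ^ (k * m) := by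
            rw [← pow_add]; congr 1; ring
          rw [this, mul_comm (k + 1) m]
          ring
      _ ≤ (u ^ m) ^ (k + 1) * n ^ m := h6
      _ = n ^ m * (u ^ (k + 1)) ^ m := by
          rw [← pow_mul, ← pow_mul, mul_comm m (k + 1), mul_comm]
  have h8 : (m ^ (k + 1) * n ^ k) ^ m ≤ (u ^ (k + 1)) ^ m :=
    Nat.le_of_mul_le_mul_left h7 (pow_pos hn m)
  have h9 := (Nat.pow_le_pow_iff_left (Nat.pos_iff_ne_zero.1 hmpos)).1 h8
  simpa using h9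

end Cfsg.Agent.Lib.H11GhAMGM2
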