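import Cfsg.Agent.Lib.H11GhDefs

/-! # Project 4091 (Gheri), piece CaseI -/

set_option autoImplicit false

namespace Cfsg.Agent.Lib.H11GhCaseI

open Subgroup Cfsg.Agent.Lib.H11GhDefs

theorem mem_Fx_zpowers {P W : Type*} [Group P] [Group W] (φ : P →* MulAut W) (x : P) (w : W) :
    w ∈ Fx φ (zpowers x) ↔ φ x w = w := by
  constructor
  · intro h
    exact h x (Subgroup.mem_zpowers x)
  · intro h y hy
    have hx : x ∈ (MulAction.stabilizer (MulAut W) w).comap φ := h
    have := (Subgroup.zpowers_le (H := (MulAction.stabilizer (MulAut W) w).comap φ)).2 hx hy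
    exact this

theorem prod_mk {P : Type*} [Group P] [Finite P] (Z : Subgroup P) (F : P ⧸ Z → ℕ) :
    ∏ᶠ x : P, F (x : P ⧸ Z) = (∏ᶠ y : P ⧸ Z, F y) ^ Nat.card Z := by
  classical
  have := Fintype.ofFinite P
  have := Fintype.ofFinite (P ⧸ Z)
  have := Fintype.ofFinite Z
  rw [finprod_eq_prod_of_fintype, finprod_eq_prod_of_fintype]
  let g : (P ⧸ Z) × Z → P := fun q => q.1.out * (q.2 : P)
  have hmk : ∀ q : (P ⧸ Z) × Z, ((g q : P) : P ⧸ Z) = q.1 := by
    intro q
    show ((q.1.out * (q.2 : P) : P) : P ⧸ Z) = q.1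
    rw [QuotientGroup.mk_mul_of_mem _ q.2.2, QuotientGroup.out_eq']
  have hg : Function.Bijective g := by
    constructor
    · rintro ⟨y, z⟩ ⟨y', z'⟩ h
      have h1 : y = y' := by
        have := congrArg (fun x : P => (x : P ⧸ Z)) h
        simp only [hmk] at this
        exact this
      subst h1
      have h2 : (z : P) = z' := mul_left_cancel h
      rw [Subtype.ext h2]
    · intro x
      have hx : (x : P ⧸ Z).out⁻¹ * x ∈ Z := by
        rw [← QuotientGroup.eq, QuotientGroup.out_eq']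
      exact ⟨((x : P ⧸ Z), ⟨_, hx⟩), by show (x : P ⧸ Z).out * ((x : P ⧸ Z).out⁻¹ * x) = x; group⟩
  rw [← Function.Bijective.prod_comp hg (fun x : P => F (x : P ⧸ Z)), Fintype.prod_prod_type,
    ← Finset.prod_pow]
  apply Finset.prod_congr rfl
  intro y _
  have : ∀ z : Z, F ((g (y, z) : P) : P ⧸ Z) = F y := fun z => by rw [hmk]
  rw [Finset.prod_congr rfl (fun z _ => this z), Finset.prod_const, Finset.card_univ,
    Nat.card_eq_fintype_card]

theorem star_of_lift {P W : Type*} [Group P] [Group W] [Finite P] [Finite W] (p : ℕ)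
    [Fact p.Prime] (φ : P →* MulAut W) (Z : Subgroup P) [Z.Normal] (hZc : Nat.card Z = p)
    (hZ : Z ≤ φ.ker) (h : Star p (QuotientGroup.lift Z φ hZ)) : Star p φ := by
  set ψ := QuotientGroup.lift Z φ hZ with hψ
  have h1 : ∀ x : P, fx φ (zpowers x) = fx ψ (zpowers (x : P ⧸ Z)) := by
    intro x
    have : Fx φ (zpowers x) = Fx ψ (zpowers (x : P ⧸ Z)) := by
      ext w
      rw [mem_Fx_zpowers, mem_Fx_zpowers]
      rfl
    unfold fx
    rw [this]
  have h2 : fx φ ⊤ = fx ψ ⊤ := by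
    have : Fx φ ⊤ = Fx ψ ⊤ := by
      ext w
      rw [mem_Fx, mem_Fx]
      constructor
      · intro hw y _
        obtain ⟨x, rfl⟩ := QuotientGroup.mk_surjective y
        exact hw x (Subgroup.mem_top x)
      · intro hw x _
        exact hw (x : P ⧸ Z) (Subgroup.mem_top _)
    unfold fx
    rw [this]
  have h3 : Nat.card P = Nat.card (P ⧸ Z) * p := by
    rw [Subgroup.card_eq_card_quotient_mul_card_subgroup Z, hZc]
  unfold H11GhDefs.Star at h ⊢
  have h4 : ∏ᶠ x : P, fx φ (zpowers x) = (∏ᶠ y : P ⧸ Z, fx ψ (zpowers y)) ^ p := by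
    rw [← hZc, ← prod_mk Z (fun y => fx ψ (zpowers y))]
    exact finprod_congr h1
  rw [h4, h2, h3]
  have h5 := Nat.pow_le_pow_left h p
  calc ((∏ᶠ y : P ⧸ Z, fx ψ (zpowers y)) ^ p) ^ p
      ≤ (Nat.card W ^ Nat.card (P ⧸ Z) * fx ψ ⊤ ^ ((p - 1) * Nat.card (P ⧸ Z))) ^ p := h5
    _ = _ := by
      rw [mul_pow, ← pow_mul, ← pow_mul, mul_assoc]

end Cfsg.Agent.Lib.H11GhCaseI
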