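import Cfsg.Agent.Lib.H11GhIndepCard

/-! # Project 4091 (Gheri), piece CaseII (45m) -/

set_option autoImplicit false

namespace Cfsg.Agent.Lib.H11GhCaseII

open Subgroup Cfsg.Agent.Lib.H11GhDefs

/-- **`Star` when a central element `z` of order `p` acts fixed-point-freely** (`V` abelian).
SKETCH.  `f x := fx φ (zpowers x)`; `Fintype.ofFinite P`, `finprod_eq_prod_of_fintype`.  For every `i`, `∏ x, f (x * z ^ i) = ∏ x, f x` (`Equiv.prod_comp (Equiv.mulRight (z ^ i))`/`Fintype.prod_equiv`).  So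
`(∏ x, f x) ^ p = ∏ i ∈ range p, ∏ x, f (x * z ^ i)` (`Finset.prod_const`, `Finset.card_range`) `= ∏ x, ∏ i ∈ range p, f (x * z ^ i)` (`Finset.prod_comm`) `≤ ∏ x, Nat.card V` (`Finset.prod_le_prod'`, `H11GhIndepCard.prod_le φ p x z _ hz hfix`, `Commute` from `Subgroup.mem_center_iff`) `= Nat.card V ^ Nat.card P` (`Finset.prod_const`, `Nat.card_eq_fintype_card`).
The last factor of `Star` is `≥ 1` (`fx φ ⊤ > 0`: `Nat.card_pos`; `Nat.one_le_pow`), `Nat.le_mul_of_pos_right`. -/
theorem star_of_fpf {P V : Type*} [Group P] [CommGroup V] [Finite P] [Finite V] (p : ℕ)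
    [Fact p.Prime] (φ : P →* MulAut V) (z : P) (hzc : z ∈ center P) (hz : orderOf z = p)
    (hfix : ∀ v : V, φ z v = v → v = 1) : Star p φ := by
  classical
  have : Fintype P := Fintype.ofFinite P
  unfold H11GhDefs.Star
  rw [finprod_eq_prod_of_fintype]
  have hshift : ∀ i : ℕ, ∏ x : P, fx φ (zpowers (x * z ^ i)) = ∏ x : P, fx φ (zpowers x) := by
    intro i
    exact Equiv.prod_comp (Equiv.mulRight (z ^ i)) (fun x => fx φ (zpowers x))
  have h1 : (∏ x : P, fx φ (zpowers x)) ^ p =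
      ∏ x : P, ∏ i ∈ Finset.range p, fx φ (zpowers (x * z ^ i)) := by
    rw [Finset.prod_comm]
    rw [Finset.prod_congr rfl (fun i _ => hshift i), Finset.prod_const, Finset.card_range]
  have h2 : ∏ x : P, ∏ i ∈ Finset.range p, fx φ (zpowers (x * z ^ i)) ≤
      ∏ _x : P, Nat.card V := by
    apply Finset.prod_le_prod'
    intro x _
    exact Cfsg.Agent.Lib.H11GhIndepCard.prod_le φ p x z
      ((Subgroup.mem_center_iff.1 hzc) x) hz hfix
  have h3 : ∏ _x : P, Nat.card V = Nat.card V ^ Nat.card P := by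
    rw [Finset.prod_const, Finset.card_univ, Nat.card_eq_fintype_card (α := P)]
  rw [h1]
  refine (h2.trans h3.le).trans ?_
  apply Nat.le_mul_of_pos_right
  apply Nat.pow_pos
  unfold fx
  exact Nat.card_pos

end Cfsg.Agent.Lib.H11GhCaseII
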