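import Cfsg.Agent.Lib.H11GhDefs

/-! # Project 4091 (Gheri), piece Triv (25m) -/

set_option autoImplicit false

namespace Cfsg.Agent.Lib.H11GhTriv

open Subgroup Cfsg.Agent.Lib.H11GhDefs

/-- **`Star` for the trivial group `P`** (equality).
SKETCH.  `Nat.card P = 1` (`Nat.card_unique`/`Nat.card_of_subsingleton 1`), `∏ᶠ x : P, f x = f 1` (`finprod_unique`/`finprod_eq_single`), `Fx φ H = ⊤` for every `H` (every `x = 1`, `map_one`, `MulAut.one_apply`), so `fx φ H = Nat.card W` (`Subgroup.card_top`).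
`w ^ p ≤ w ^ 1 * w ^ ((p-1)*1)`: `← pow_add`, `1 + (p - 1) = p` since `p ≥ 1`. -/
theorem star_of_subsingleton {P W : Type*} [Group P] [Group W] [Subsingleton P] (p : ℕ)
    [Fact p.Prime] (φ : P →* MulAut W) : Star p φ := by
  have hp : 1 ≤ p := (Fact.out : p.Prime).one_lt.le
  have hfx : ∀ H : Subgroup P, fx φ H = Nat.card W := by
    intro H
    have : Fx φ H = ⊤ := by
      rw [eq_top_iff]
      intro w _ x _
      rw [Subsingleton.elim x 1, map_one, MulAut.one_apply]
    unfold fx
    rw [this, Subgroup.card_top]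
  unfold H11GhDefs.Star
  haveI : Unique P := ⟨⟨1⟩, fun x => Subsingleton.elim x 1⟩
  have hP : Nat.card P = 1 := Nat.card_unique
  rw [finprod_unique, hfx, hfx, hP, pow_one, mul_one, ← pow_succ']
  apply le_of_eq
  congr 1
  omega

end Cfsg.Agent.Lib.H11GhTriv
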