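import Cfsg.Agent.Lib.H11GhStarMul
import Cfsg.Agent.Lib.H11GhCaseI
import Cfsg.Agent.Lib.H11GhCaseII
import Cfsg.Agent.Lib.H11GhTriv

/-! # Project 4091 (Gheri), piece AbStar (70m) -/

set_option autoImplicit false

namespace Cfsg.Agent.Lib.H11GhAbStar

open Subgroup Cfsg.Agent.Lib.H11GhDefs

theorem fixed_zpowers {P W : Type*} [Group P] [Group W] (φ : P →* MulAut W) (z : P) (w : W)
    (h : φ z w = w) : ∀ y ∈ zpowers z, φ y w = w := by
  let S : Subgroup P :=
    { carrier := {y | φ y w = w}
      mul_mem' := by
        intro a b ha hb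
        show φ (a * b) w = w
        rw [map_mul, MulAut.mul_apply, hb, ha]
      one_mem' := by
        show φ 1 w = w
        rw [map_one, MulAut.one_apply]
      inv_mem' := by
        intro a ha
        show φ a⁻¹ w = w
        have := phi_inv_apply φ a w
        rwa [ha] at this }
  have hS : zpowers z ≤ S := (zpowers_le).mpr h
  intro y hy
  exact hS hy

/-- **`Star` for abelian `V`** (induction on `|P|`).  START FIRST.
SKETCH.  Strong induction on `Nat.card P`, generalizing `P V ψ`.  If `P` is trivial (`Subsingleton P`): `H11GhTriv.star_of_subsingleton`.  Otherwise `center P` is nontrivial (`IsPGroup.center_nontrivial`), and contains `z` with `orderOf z = p`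
(`exists_prime_orderOf_dvd_card'` for `↥(center P)`, `p ∣ Nat.card (center P)` since it is a nontrivial `p`-group: `IsPGroup.iff_card`; `Subgroup.orderOf_coe`).  `Z := zpowers z` is normal (central), `Nat.card Z = p` (`Nat.card_zpowers`).
`N := Fx ψ Z`: invariant since `z` is central (`ψ y (ψ x v) = ψ x (ψ y v)` for `y ∈ Z`); normal since `V` is commutative (`inferInstance`).
* `Star p (res ψ N _)`: `Z ≤ (res ψ N _).ker` (`MonoidHom.mem_ker`, `MulEquiv.ext`, `Subtype.ext`, `res_apply`, `mem_Fx`); induction hypothesis for `P ⧸ Z` (a `p`-group: `IsPGroup.to_quotient`; `Nat.card (P ⧸ Z) < Nat.card P`) acting on `↥N` by `QuotientGroup.lift Z (res ψ N _) _`; `H11GhCaseI.star_of_lift`.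
* `Star p (quo ψ N _)`: `H11GhCaseII.star_of_fpf p _ z _ hz _`.  Fixed-point-freeness: by `H11GhExact.fx_eq p hP ψ N _ _ Z`, `fx ψ Z = fx (res ψ N _) Z * fx (quo ψ N _) Z` with `fx ψ Z = Nat.card N = fx (res ψ N _) Z` (`Fx (res ..) Z = ⊤`), so `fx (quo ψ N _) Z = 1`, i.e. `Fx (quo ..) Z = ⊥` (`Subgroup.card_eq_one`/`Subgroup.eq_bot_of_card_eq`); a `v` fixed by `quo ψ N _ z` lies in it (fixed by all powers of `z`).
* `H11GhStarMul.star_of p hP ψ N _ hcop _ _`. -/
theorem star_comm.{u, v} (p : ℕ) [Fact p.Prime] :
    ∀ (P : Type u) [Group P] [Finite P], IsPGroup p P →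
      ∀ (V : Type v) [CommGroup V] [Finite V] (ψ : P →* MulAut V),
        (Nat.card V).Coprime p → Star p ψ := by
  have hp : p.Prime := Fact.out
  have key : ∀ n : ℕ, ∀ (P : Type u) [Group P] [Finite P], Nat.card P = n → IsPGroup p P →
      ∀ (V : Type v) [CommGroup V] [Finite V] (ψ : P →* MulAut V),
        (Nat.card V).Coprime p → Star p ψ := by
    intro n
    induction n using Nat.strong_induction_on with
    | _ n ih =>
      intro P _ _ hn hP V _ _ ψ hcop
      by_cases hsub : Subsingleton P
      · exact H11GhTriv.star_of_subsingleton p ψ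
      · have hnt : Nontrivial P := not_subsingleton_iff_nontrivial.mp hsub
        have hcn : Nontrivial (center P) := hP.center_nontrivial
        have hpc : p ∣ Nat.card (center P) := by
          obtain ⟨k, hk⟩ := (IsPGroup.iff_card).mp (hP.to_subgroup (center P))
          rw [hk]
          have hk0 : k ≠ 0 := by
            rintro rfl
            rw [pow_zero] at hk
            have h1 := (Nat.card_eq_one_iff_unique.mp hk).1
            exact not_subsingleton _ h1
          exact dvd_pow_self p hk0
        obtain ⟨z0, hz0⟩ := exists_prime_orderOf_dvd_card' p hpc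
        obtain ⟨z, hzc⟩ := z0
        have hz : orderOf z = p := by
          rw [← hz0, Subgroup.orderOf_mk]
        have hZle : zpowers z ≤ center P := (zpowers_le).mpr hzc
        have hZn : (zpowers z).Normal := by
          constructor
          intro y hy g
          have : g * y * g⁻¹ = y := by
            have h1 := (Subgroup.mem_center_iff.mp (hZle hy)) g
            rw [h1, mul_inv_cancel_right]
          rw [this]
          exact hy
        have hZc : Nat.card (zpowers z) = p := by rw [Nat.card_zpowers, hz]
        have hN : Inv ψ (Fx ψ (zpowers z)) := by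
          intro x w hw y hy
          have h1 := (Subgroup.mem_center_iff.mp (hZle hy)) x
          rw [← MulAut.mul_apply, ← map_mul, ← h1, map_mul, MulAut.mul_apply, hw y hy]
        have hcopN : (Nat.card (Fx ψ (zpowers z))).Coprime p :=
          Nat.Coprime.coprime_dvd_left (Subgroup.card_subgroup_dvd_card _) hcop
        have hker : zpowers z ≤ (res ψ (Fx ψ (zpowers z)) hN).ker := by
          intro y hy
          rw [MonoidHom.mem_ker]
          ext w
          rw [res_apply, MulAut.one_apply]
          exact w.2 y hy
        have hlt : Nat.card (P ⧸ zpowers z) < n := by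
          have h1 := Subgroup.card_eq_card_quotient_mul_card_subgroup (zpowers z)
          rw [hZc, hn] at h1
          have h2 : 0 < Nat.card (P ⧸ zpowers z) := Nat.card_pos
          have h3 := hp.two_le
          rw [h1]
          nlinarith
        have hs1 : Star p (res ψ (Fx ψ (zpowers z)) hN) := by
          apply H11GhCaseI.star_of_lift p _ (zpowers z) hZc hker
          exact ih _ hlt (P ⧸ zpowers z) rfl (hP.to_quotient _) _ _ hcopN
        have hfx := H11GhExact.fx_eq p hP ψ (Fx ψ (zpowers z)) hN hcopN (zpowers z)
        have htop : Fx (res ψ (Fx ψ (zpowers z)) hN) (zpowers z) = ⊤ := by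
          rw [eq_top_iff]
          intro w _ y hy
          apply Subtype.ext
          rw [res_apply]
          exact w.2 y hy
        have h1 : fx (quo ψ (Fx ψ (zpowers z)) hN) (zpowers z) = 1 := by
          have e1 : fx ψ (zpowers z) = Nat.card (Fx ψ (zpowers z)) := rfl
          have e2 : fx (res ψ (Fx ψ (zpowers z)) hN) (zpowers z)
              = Nat.card (Fx ψ (zpowers z)) := by
            unfold fx
            rw [htop, Subgroup.card_top]
          rw [e1, e2] at hfx
          have hpos : 0 < Nat.card (Fx ψ (zpowers z)) := Nat.card_pos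
          exact (Nat.eq_of_mul_eq_mul_left hpos (by rw [mul_one]; exact hfx)).symm
        have hbot : Fx (quo ψ (Fx ψ (zpowers z)) hN) (zpowers z) = ⊥ :=
          Subgroup.card_eq_one.mp h1
        have hs2 : Star p (quo ψ (Fx ψ (zpowers z)) hN) := by
          apply H11GhCaseII.star_of_fpf p _ z hzc hz
          intro v hv
          have hmem : v ∈ Fx (quo ψ (Fx ψ (zpowers z)) hN) (zpowers z) :=
            fixed_zpowers _ z v hv
          rw [hbot] at hmem
          exact Subgroup.mem_bot.mp hmem
        exact H11GhStarMul.star_of p hP ψ (Fx ψ (zpowers z)) hN hcop hs1 hs2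
  intro P _ _ hP V _ _ ψ hcop
  exact key _ P rfl hP V ψ hcop

end Cfsg.Agent.Lib.H11GhAbStar
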