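import Cfsg.Agent.Lib.H11GhDefs2

/-! # Project 4091 (Gheri), piece Bridge (75m) -/

set_option autoImplicit false

namespace Cfsg.Agent.Lib.H11GhBridge

open Subgroup Cfsg.Agent.Lib.H11GhDefs Cfsg.Agent.Lib.H11GhDefs2 Cfsg.Agent.Lib.H11CaDefs

/-- **Fixed points of `K ≤ P` on `M'/M` and the set `Cen`.**  START FIRST.
SKETCH.  `π := QuotientGroup.mk' (M.subgroupOf M') : ↥M' →* ↥M' ⧸ M.subgroupOf M'`, `C := (Fx (act P M M') K).comap π`, a subgroup of `↥M'` containing `ker π = M.subgroupOf M'`.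
* `u ∈ C ↔ (u : G) ∈ Cen (K.map P.subtype) M M'`: by `act_mk` and `QuotientGroup.eq`, `u ∈ C ↔ ∀ x ∈ K, u⁻¹ * (x u x⁻¹) ∈ M`; and `u⁻¹ * (x * u * x⁻¹) ∈ M ↔ x * u * x⁻¹ * u⁻¹ ∈ M` (`Subgroup.Normal.mem_comm_iff`).  `h ∈ K.map P.subtype ↔ ∃ x ∈ K, ↑x = h`.
  So `Nat.card C = Nat.card (Cen (K.map P.subtype) M M')` (`Nat.card_congr`: `u ↦ ⟨(u : G), _⟩`; elements of `Cen` lie in `M'`).
* `Nat.card C = Nat.card (Fx ..) * Nat.card (M.subgroupOf M')`: `Subgroup.card_comap_of_surjective`‑type lemma, or `C ⧸ ker ≃ Fx` ; e.g. restrict `π` to `C →* Fx`, surjective with kernel `≃ M.subgroupOf M'`, `Subgroup.card_eq_card_quotient_mul_card_subgroup`, `QuotientGroup.quotientKerEquivOfSurjective`.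
* `Nat.card (M.subgroupOf M') = Nat.card M` (`hle`; `Subgroup.subgroupOfEquivOfLe hle`).  `Nat.mul_div_cancel _ Nat.card_pos`. -/
theorem fx_act {G : Type*} [Group G] [Finite G] (P M M' : Subgroup G) [M.Normal] [M'.Normal]
    (hle : M ≤ M') (K : Subgroup ↥P) :
    fx (act P M M') K = Nat.card (Cen (K.map P.subtype) M M') / Nat.card M := by
  have hMn : M.Normal := inferInstance
  set π := QuotientGroup.mk' (M.subgroupOf M') with hπ
  have hπs : Function.Surjective π := QuotientGroup.mk'_surjective _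
  set C : Subgroup ↥M' := (Fx (act P M M') K).comap π with hC
  have hiff : ∀ u : ↥M', u ∈ C ↔ (u : G) ∈ Cen (K.map P.subtype) M M' := by
    intro u
    have hx : ∀ x : ↥P, act P M M' x (π u) = π u ↔ (x : G) * u * (x : G)⁻¹ * (u : G)⁻¹ ∈ M := by
      intro x
      have h1 : act P M M' x (π u) = act P M M' x (u : ↥M' ⧸ M.subgroupOf M') := rfl
      have h2 : π u = (u : ↥M' ⧸ M.subgroupOf M') := rfl
      rw [h1, act_mk, h2, QuotientGroup.eq, mem_subgroupOf]
      have h3 : (((⟨(x : G) * u * (x : G)⁻¹, (inferInstance : M'.Normal).conj_mem _ u.2 _⟩ : ↥M')⁻¹ * u : ↥M') : G)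
          = ((x : G) * u * (x : G)⁻¹)⁻¹ * (u : G) := rfl
      have h4 : (((x : G) * u * (x : G)⁻¹)⁻¹ * (u : G))⁻¹ = (u : G)⁻¹ * ((x : G) * u * (x : G)⁻¹) := by
        group
      rw [h3, ← M.inv_mem_iff, h4, hMn.mem_comm_iff]
    constructor
    · intro hu
      refine ⟨u.2, ?_⟩
      rintro _ ⟨x, hxK, rfl⟩
      exact (hx x).1 (hu x hxK)
    · intro hu x hxK
      exact (hx x).2 (hu.2 _ ⟨x, hxK, rfl⟩)
  have hcardC : Nat.card C = Nat.card (Cen (K.map P.subtype) M M') := by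
    apply Nat.card_congr
    exact
      { toFun := fun u => ⟨((u : ↥M') : G), (hiff u.1).1 u.2⟩
        invFun := fun c => ⟨⟨c.1, c.2.1⟩, (hiff _).2 c.2⟩
        left_inv := fun u => rfl
        right_inv := fun c => rfl }
  have hidx : C.index = (Fx (act P M M') K).index := Subgroup.index_comap_of_surjective _ hπs
  have h1 := Subgroup.card_mul_index C
  have h2 := Subgroup.card_mul_index (Fx (act P M M') K)
  have h3 := Subgroup.card_eq_card_quotient_mul_card_subgroup (M.subgroupOf M')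
  have h4 : Nat.card (M.subgroupOf M') = Nat.card M :=
    Nat.card_congr (Subgroup.subgroupOfEquivOfLe hle).toEquiv
  have hidx0 : (Fx (act P M M') K).index ≠ 0 := Subgroup.index_ne_zero_of_finite
  have h5 : Nat.card C = Nat.card (Fx (act P M M') K) * Nat.card M := by
    rw [hidx] at h1
    rw [h3, ← h2, h4] at h1
    have h6 : Nat.card C * (Fx (act P M M') K).index
        = (Nat.card (Fx (act P M M') K) * Nat.card M) * (Fx (act P M M') K).index := by
      rw [h1]; ring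
    exact Nat.eq_of_mul_eq_mul_right (Nat.pos_of_ne_zero hidx0) h6
  rw [← hcardC, h5, Nat.mul_div_cancel _ Nat.card_pos]
  rfl

end Cfsg.Agent.Lib.H11GhBridge
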