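import Cfsg.Agent.Lib.H11GhDefs

/-! # Project 4091 (Gheri), piece Coset (45m) -/

set_option autoImplicit false

namespace Cfsg.Agent.Lib.H11GhCoset

open Subgroup Cfsg.Agent.Lib.H11GhDefs

/-- **A `p`-group fixes an element in every invariant coset of a `p'`-subgroup.** -/
theorem exists_fixed {P W : Type*} [Group P] [Group W] [Finite W] (p : ℕ) [Fact p.Prime]
    (hP : IsPGroup p P) (φ : P →* MulAut W) (N : Subgroup W) (hN : Inv φ N)
    (hcop : (Nat.card N).Coprime p) (w : W) (hw : ∀ x : P, w⁻¹ * φ x w ∈ N) :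
    ∃ n ∈ N, ∀ x : P, φ x (w * n) = w * n := by
  letI act : MulAction P ↥N :=
    { smul := fun x n => ⟨(w⁻¹ * φ x w) * φ x n, N.mul_mem (hw x) (hN x n n.2)⟩
      one_smul := by
        intro n
        apply Subtype.ext
        show (w⁻¹ * φ 1 w) * φ 1 (n : W) = n
        rw [map_one, MulAut.one_apply, MulAut.one_apply, inv_mul_cancel, one_mul]
      mul_smul := by
        intro x y n
        apply Subtype.ext
        show (w⁻¹ * φ (x * y) w) * φ (x * y) (n : W)
          = (w⁻¹ * φ x w) * φ x ((w⁻¹ * φ y w) * φ y (n : W))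
        rw [map_mul, MulAut.mul_apply, MulAut.mul_apply, map_mul, map_mul, map_inv]
        group }
  have hnd : ¬ p ∣ Nat.card ↥N := (Nat.Prime.coprime_iff_not_dvd Fact.out).1 hcop.symm
  obtain ⟨n, hn⟩ := hP.nonempty_fixed_point_of_prime_not_dvd_card ↥N hnd
  refine ⟨n, n.2, fun x => ?_⟩
  have h1 : (w⁻¹ * φ x w) * φ x (n : W) = n := congrArg Subtype.val (hn x)
  rw [map_mul]
  calc φ x w * φ x (n : W) = w * ((w⁻¹ * φ x w) * φ x (n : W)) := by group
    _ = w * n := by rw [h1]

end Cfsg.Agent.Lib.H11GhCoset
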