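import Cfsg.Agent.Lib.H11GhDefs2

/-! # Project 4091 (Gheri), piece LamConj (35m) -/

set_option autoImplicit false

namespace Cfsg.Agent.Lib.H11GhLamConj

open Subgroup Cfsg.Agent.Lib.H11GhDefs Cfsg.Agent.Lib.H11GhDefs2 Cfsg.Agent.Lib.H11CaDefs

/-- `λ` is a class function.
SKETCH.  `Nat.card_congr`: `Q ↦ c • Q` (`Sylow` conjugation action of `G`, `open scoped Pointwise`; `Sylow.smul_def`, `Sylow.coe_subgroup_smul`…) is a bijection from `{Q // zpowers g ≤ Q}` onto `{Q // zpowers (c g c⁻¹) ≤ Q}` with inverse `c⁻¹ • ·`: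
`zpowers_le`, `g ∈ Q ↔ c * g * c⁻¹ ∈ c • Q` (`Subgroup.mem_pointwise_smul_iff_inv_smul_mem`, `MulAut.smul_def`, `MulAut.conj_apply`; or `Cfsg.Agent.Lib.Helper66Coprime.sylow_mem_conj_smul_iff`).  (`Equiv.subtypeEquiv (MulAction.toPerm c) _`.) -/
theorem lam_conj {G : Type*} [Group G] (p : ℕ) (c g : G) :
    lam p (zpowers (c * g * c⁻¹)) = lam p (zpowers g) := by
  unfold lam
  symm
  apply Nat.card_congr
  refine Equiv.subtypeEquiv (MulAction.toPerm c) ?_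
  intro Q
  rw [zpowers_le, zpowers_le]
  show g ∈ (Q : Subgroup G) ↔ c * g * c⁻¹ ∈ ((c • Q : Sylow p G) : Subgroup G)
  rw [Sylow.smul_def, Sylow.pointwise_smul_def, Subgroup.mem_pointwise_smul_iff_inv_smul_mem,
    MulAut.smul_def]
  simp [mul_assoc]

end Cfsg.Agent.Lib.H11GhLamConj
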