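import Cfsg.Agent.Lib.H11GhDefs

/-! # Project 4091 (Gheri), piece SumConj (40m) -/

set_option autoImplicit false

namespace Cfsg.Agent.Lib.H11GhSumConj

open Subgroup Cfsg.Agent.Lib.H11GhDefs

/-- The sum of a class function over a Sylow subgroup does not depend on the Sylow subgroup.
SKETCH.  `MulAction.exists_smul_eq G P Q` gives `c` with `c • P = Q`.  `finsum_comp_equiv`/`finsum_eq_of_bijective`: the equivalence `↥P ≃ ↥Q`, `x ↦ ⟨c * x * c⁻¹, _⟩` (membership: `Sylow.smul_def`, `Subgroup.mem_pointwise_smul_iff_inv_smul_mem`/`Subgroup.smul_mem_pointwise_smul`, `MulAut.conj_apply`), inverse `y ↦ c⁻¹ * y * c`; `hf`. -/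
theorem sum_eq {G : Type*} [Group G] [Finite G] (p : ℕ) [Fact p.Prime] (f : G → ℝ)
    (hf : ∀ c g : G, f (c * g * c⁻¹) = f g) (P Q : Sylow p G) :
    ∑ᶠ x : ↥(Q : Subgroup G), f (x : G) = ∑ᶠ x : ↥(P : Subgroup G), f (x : G) := by
  obtain ⟨c, hc⟩ := MulAction.exists_smul_eq G P Q
  have hmem : ∀ y : G, y ∈ (Q : Subgroup G) ↔ c⁻¹ * y * c ∈ (P : Subgroup G) := by
    intro y
    rw [← hc, Sylow.coe_subgroup_smul, Subgroup.mem_pointwise_smul_iff_inv_smul_mem,
      MulAut.smul_def, ← map_inv, MulAut.conj_apply, inv_inv]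
  let e : ↥(P : Subgroup G) ≃ ↥(Q : Subgroup G) :=
    { toFun := fun x => ⟨c * x * c⁻¹, by
        rw [hmem]
        have : c⁻¹ * (c * (x : G) * c⁻¹) * c = x := by group
        rw [this]
        exact x.2⟩
      invFun := fun y => ⟨c⁻¹ * y * c, (hmem y).1 y.2⟩
      left_inv := fun x => Subtype.ext (by simp only []; group)
      right_inv := fun y => Subtype.ext (by simp only []; group) }
  rw [← finsum_comp_equiv e]
  apply finsum_congr
  intro x
  exact hf c x

end Cfsg.Agent.Lib.H11GhSumConj
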