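import Cfsg.Agent.Lib.H11GhDouble
import Cfsg.Agent.Lib.H11GhSumConj
import Cfsg.Agent.Lib.H11GhLamConj

/-! # Project 4091 (Gheri), piece Count (25m) -/

set_option autoImplicit false

namespace Cfsg.Agent.Lib.H11GhCount

open Subgroup Cfsg.Agent.Lib.H11GhDefs Cfsg.Agent.Lib.H11GhDefs2 Cfsg.Agent.Lib.H11CaDefs

/-- **`u = n ∑_{x ∈ P} 1/λ(x)`.**
SKETCH.  `H11GhDouble.card_eq p`; every inner sum equals the one for `P`: `H11GhSumConj.sum_eq p (fun g => 1 / (lam p (zpowers g) : ℝ)) (fun c g => by rw [H11GhLamConj.lam_conj]) P Q`;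
`finsum_congr`, then `∑ᶠ _ : Sylow p G, a = Nat.card (Sylow p G) * a` (`finsum_eq_sum_of_fintype`, `Finset.sum_const`, `Finset.card_univ`, `nsmul_eq_mul`, `Nat.card_eq_fintype_card`). -/
theorem card_pelts {G : Type*} [Group G] [Finite G] (p : ℕ) [Fact p.Prime] (P : Sylow p G) :
    (Nat.card {g : G // ∃ k : ℕ, orderOf g = p ^ k} : ℝ) =
      Nat.card (Sylow p G) *
        ∑ᶠ x : ↥(P : Subgroup G), (1 / (lam p (zpowers (x : G)) : ℝ)) := by
  classical
  haveI := Fintype.ofFinite (Sylow p G)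
  rw [H11GhDouble.card_eq p]
  have h : ∀ Q : Sylow p G, ∑ᶠ x : ↥(Q : Subgroup G), (1 / (lam p (zpowers (x : G)) : ℝ))
      = ∑ᶠ x : ↥(P : Subgroup G), (1 / (lam p (zpowers (x : G)) : ℝ)) := fun Q =>
    H11GhSumConj.sum_eq p (fun g => 1 / (lam p (zpowers g) : ℝ))
      (fun c g => by rw [H11GhLamConj.lam_conj]) P Q
  rw [finsum_congr h, finsum_eq_sum_of_fintype, Finset.sum_const, Finset.card_univ, nsmul_eq_mul,
    Nat.card_eq_fintype_card]

end Cfsg.Agent.Lib.H11GhCount
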