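import Cfsg.Agent.Lib.H11GhFactor

/-! # Project 4091 (Gheri), piece DIneq (45m) -/

set_option autoImplicit false

namespace Cfsg.Agent.Lib.H11GhDIneq

open Subgroup Cfsg.Agent.Lib.H11GhDefs Cfsg.Agent.Lib.H11GhDefs2 Cfsg.Agent.Lib.H11CaDefs

/-- **The inequality for the whole series.**
SKETCH.  `unfold D`.  `Fintype.ofFinite ↥P`, `finprod_eq_prod_of_fintype`, `Finset.prod_comm`: `∏ x, ∏ i, d i x = ∏ i, ∏ x, d i x`; `Finset.prod_pow`; the right side is `∏ i, (d i ⊥ ^ m * d i P ^ ((p-1) m))` (`Finset.prod_mul_distrib`, `Finset.prod_pow`).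
`Finset.prod_le_prod'` (or `Finset.prod_le_prod (fun _ _ => Nat.zero_le _)`): for each `i`, `split_ifs`/`by_cases` on coprimality: coprime case = `H11GhFactor.factor_ineq p P (M i.castSucc) (M i.succ) (hmono (Fin.castSucc_lt_succ i).le)` (instances `hnormal _`), else `1 ≤ 1` (`simp`). -/
theorem d_ineq {G : Type*} [Group G] [Finite G] (p : ℕ) [Fact p.Prime] (P : Sylow p G) (n : ℕ)
    (M : Fin (n + 1) → Subgroup G) (hmono : Monotone M) (hnormal : ∀ i, (M i).Normal) :
    (∏ᶠ x : ↥(P : Subgroup G), D p M (zpowers (x : G))) ^ p ≤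
      D p M ⊥ ^ Nat.card (P : Subgroup G) *
        D p M (P : Subgroup G) ^ ((p - 1) * Nat.card (P : Subgroup G)) := by
  classical
  haveI := Fintype.ofFinite ↥(P : Subgroup G)
  unfold D
  rw [finprod_eq_prod_of_fintype, Finset.prod_comm, ← Finset.prod_pow, ← Finset.prod_pow,
    ← Finset.prod_pow, ← Finset.prod_mul_distrib]
  apply Finset.prod_le_prod (fun _ _ => Nat.zero_le _)
  intro i _
  by_cases h : ((M i.castSucc).relIndex (M i.succ)).Coprime p
  · simp only [if_pos h]
    haveI := hnormal i.castSucc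
    haveI := hnormal i.succ
    have := H11GhFactor.factor_ineq p P (M i.castSucc) (M i.succ)
      (hmono (Fin.castSucc_lt_succ).le) h
    rw [finprod_eq_prod_of_fintype] at this
    exact this
  · simp only [if_neg h]
    simp

end Cfsg.Agent.Lib.H11GhDIneq
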