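import Cfsg.Agent.Lib.H11GhDefs2

/-! # Project 4091 (Gheri), piece DPos (25m) -/

set_option autoImplicit false

namespace Cfsg.Agent.Lib.H11GhDPos

open Subgroup Cfsg.Agent.Lib.H11GhDefs Cfsg.Agent.Lib.H11GhDefs2 Cfsg.Agent.Lib.H11CaDefs

/-- `D > 0`.
SKETCH.  `Finset.prod_pos`; `split_ifs`; `Nat.div_pos`: `Nat.card M ≤ Nat.card (Cen H M M')` since `(M : Set G) ⊆ Cen H M M'` (`u ∈ M`: `u ∈ M'` by monotonicity; `h * u * h⁻¹ ∈ M` by normality, times `u⁻¹ ∈ M`): `Nat.card_mono (Set.toFinite _)`; `Nat.card_pos`. -/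
theorem d_pos {G : Type*} [Group G] [Finite G] (p : ℕ) (n : ℕ) (M : Fin (n + 1) → Subgroup G)
    (hmono : Monotone M) (hnormal : ∀ i, (M i).Normal) (H : Subgroup G) : 0 < D p M H := by
  unfold D
  apply Finset.prod_pos
  intro i _
  split_ifs
  · apply Nat.div_pos
    · have hsub : ((M i.castSucc : Subgroup G) : Set G) ⊆ Cen H (M i.castSucc) (M i.succ) := by
        intro u hu
        refine ⟨hmono (Fin.castSucc_lt_succ).le hu, fun h _ => ?_⟩
        exact (M i.castSucc).mul_mem ((hnormal i.castSucc).conj_mem u hu h)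
          ((M i.castSucc).inv_mem hu)
      exact Nat.card_mono (Set.toFinite _) hsub
    · exact Nat.card_pos
  · exact Nat.one_pos

end Cfsg.Agent.Lib.H11GhDPos
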