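import Mathlib

/-!
# Project 4091 (Gheri's inequality `u^p ≥ |P|^p n^(p-1)` in `p`-solvable groups): vocabulary

A finite `p`-group `P` acts on a finite `p'`-group `W` through `φ : P →* MulAut W`.
`Fx φ H` = fixed points of the subgroup `H ≤ P`, `fx φ H` its order.
`Star p φ` is the inequality `(∏_{x ∈ P} |C_W(x)|)^p ≤ |W|^|P| * |C_W(P)|^((p-1)|P|)`.
-/

set_option autoImplicit false

namespace Cfsg.Agent.Lib.H11GhDefs

open Subgroup

variable {P : Type*} {W : Type*} [Group P] [Group W]

/-- the fixed points of `H ≤ P` in `W` -/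
def Fx (φ : P →* MulAut W) (H : Subgroup P) : Subgroup W where
  carrier := {w | ∀ x ∈ H, φ x w = w}
  mul_mem' := by
    intro a b ha hb x hx
    rw [map_mul, ha x hx, hb x hx]
  one_mem' := by
    intro x _
    exact map_one _
  inv_mem' := by
    intro a ha x hx
    rw [map_inv, ha x hx]

theorem mem_Fx {φ : P →* MulAut W} {H : Subgroup P} {w : W} :
    w ∈ Fx φ H ↔ ∀ x ∈ H, φ x w = w := Iff.rfl

/-- the number of fixed points of `H` -/
noncomputable def fx (φ : P →* MulAut W) (H : Subgroup P) : ℕ := Nat.card (Fx φ H)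

/-- `S` is invariant under the action -/
def Inv (φ : P →* MulAut W) (S : Subgroup W) : Prop := ∀ x : P, ∀ w ∈ S, φ x w ∈ S

theorem phi_inv_apply (φ : P →* MulAut W) (x : P) (w : W) : φ x⁻¹ (φ x w) = w := by
  rw [← MulAut.mul_apply, ← map_mul, inv_mul_cancel, map_one, MulAut.one_apply]

theorem phi_apply_inv (φ : P →* MulAut W) (x : P) (w : W) : φ x (φ x⁻¹ w) = w := by
  rw [← MulAut.mul_apply, ← map_mul, mul_inv_cancel, map_one, MulAut.one_apply]

/-- the restriction of the action to an invariant subgroup -/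
def res (φ : P →* MulAut W) (S : Subgroup W) (hS : Inv φ S) : P →* MulAut S where
  toFun x :=
    { toFun := fun w => ⟨φ x w, hS x w w.2⟩
      invFun := fun w => ⟨φ x⁻¹ w, hS x⁻¹ w w.2⟩
      left_inv := fun w => Subtype.ext (phi_inv_apply φ x w)
      right_inv := fun w => Subtype.ext (phi_apply_inv φ x w)
      map_mul' := fun a b => Subtype.ext (map_mul (φ x) (a : W) (b : W)) }
  map_one' := by
    ext w
    simp
  map_mul' := by
    intro x y
    ext w
    simp

@[simp] theorem res_apply (φ : P →* MulAut W) (S : Subgroup W) (hS : Inv φ S) (x : P) (w : S) :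
    ((res φ S hS x w : S) : W) = φ x (w : W) := rfl

theorem map_eq_of_inv (φ : P →* MulAut W) (N : Subgroup W) (hN : Inv φ N) (x : P) :
    N.map (φ x).toMonoidHom = N := by
  apply le_antisymm
  · rintro _ ⟨w, hw, rfl⟩
    exact hN x w hw
  · intro w hw
    exact ⟨φ x⁻¹ w, hN x⁻¹ w hw, phi_apply_inv φ x w⟩

/-- the induced action on the quotient by an invariant normal subgroup -/
noncomputable def quo (φ : P →* MulAut W) (N : Subgroup W) [N.Normal] (hN : Inv φ N) :
    P →* MulAut (W ⧸ N) where
  toFun x := QuotientGroup.congr N N (φ x) (map_eq_of_inv φ N hN x)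
  map_one' := by
    ext w
    induction w using QuotientGroup.induction_on with
    | H w => simp
  map_mul' := by
    intro x y
    ext w
    induction w using QuotientGroup.induction_on with
    | H w =>
      simp only [map_mul, MulAut.mul_apply]
      rfl

@[simp] theorem quo_mk (φ : P →* MulAut W) (N : Subgroup W) [N.Normal] (hN : Inv φ N) (x : P)
    (w : W) : quo φ N hN x (w : W ⧸ N) = ((φ x w : W) : W ⧸ N) := rfl

/-- **the inequality** `(∏_{x ∈ P} |C_W(x)|)^p ≤ |W|^|P| * |C_W(P)|^((p-1)|P|)` -/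
def Star (p : ℕ) (φ : P →* MulAut W) : Prop :=
  (∏ᶠ x : P, fx φ (zpowers x)) ^ p ≤
    Nat.card W ^ Nat.card P * fx φ ⊤ ^ ((p - 1) * Nat.card P)

end Cfsg.Agent.Lib.H11GhDefs
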