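import Cfsg.Agent.Lib.H11GhDefs
import Cfsg.Agent.Lib.H11CaDefs

/-!
# Project 4091: vocabulary, group level
-/

set_option autoImplicit false

namespace Cfsg.Agent.Lib.H11GhDefs2

open Subgroup Cfsg.Agent.Lib.H11GhDefs Cfsg.Agent.Lib.H11CaDefs

variable {G : Type*} [Group G]

/-- the number of Sylow `p`-subgroups containing `H` -/
noncomputable def lam (p : ℕ) (H : Subgroup G) : ℕ :=
  Nat.card {Q : Sylow p G // H ≤ (Q : Subgroup G)}

/-- the product over the `p'`-factors of the series `M` of `|C_{M_{i+1}/M_i}(H)|` -/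
noncomputable def D (p : ℕ) {n : ℕ} (M : Fin (n + 1) → Subgroup G) (H : Subgroup G) : ℕ :=
  ∏ i : Fin n, (if ((M i.castSucc).relIndex (M i.succ)).Coprime p then
    Nat.card (Cen H (M i.castSucc) (M i.succ)) / Nat.card (M i.castSucc) else 1)

theorem inv_act (P M M' : Subgroup G) [hM : M.Normal] [M'.Normal] :
    Inv ((MulAut.conjNormal (H := M')).comp P.subtype) (M.subgroupOf M') := by
  intro x w hw
  rw [mem_subgroupOf] at hw ⊢
  simp only [MonoidHom.coe_comp, Function.comp_apply, Subgroup.coe_subtype,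
    MulAut.conjNormal_apply]
  exact hM.conj_mem _ hw _

/-- the action (by conjugation) of the subgroup `P` on the section `M'/M` -/
noncomputable def act (P M M' : Subgroup G) [M.Normal] [M'.Normal] :
    ↥P →* MulAut (↥M' ⧸ M.subgroupOf M') :=
  quo ((MulAut.conjNormal (H := M')).comp P.subtype) (M.subgroupOf M') (inv_act P M M')

theorem act_mk (P M M' : Subgroup G) [M.Normal] [hM' : M'.Normal] (x : ↥P) (u : ↥M') :
    act P M M' x (u : ↥M' ⧸ M.subgroupOf M') =
      ((⟨(x : G) * u * (x : G)⁻¹, hM'.conj_mem _ u.2 _⟩ : ↥M') : ↥M' ⧸ M.subgroupOf M') := by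
  rfl

end Cfsg.Agent.Lib.H11GhDefs2
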