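import Cfsg.Agent.Lib.H11GhDefs2

/-! # Project 4091 (Gheri), piece Double (70m) -/

set_option autoImplicit false

namespace Cfsg.Agent.Lib.H11GhDouble

open Subgroup Cfsg.Agent.Lib.H11GhDefs Cfsg.Agent.Lib.H11GhDefs2 Cfsg.Agent.Lib.H11CaDefs

/-- **Double counting of pairs (`p`-element, Sylow subgroup containing it).**  START FIRST.
SKETCH.  `classical`, `Fintype.ofFinite` everywhere, `finsum_eq_sum_of_fintype`.  Let `E := {g : G | ∃ k, orderOf g = p ^ k}`, `l g := (lam p (zpowers g) : ℝ)`.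
`∑ Q, ∑ x : ↥Q, 1 / l x = ∑ Q, ∑ g : G, if g ∈ Q then 1 / l g else 0` (`Finset.sum_subtype`/`Finset.sum_coe_sort`, `Finset.sum_filter`) `= ∑ g, ∑ Q, if g ∈ Q then 1 / l g else 0` (`Finset.sum_comm`)
`= ∑ g, (#{Q | g ∈ Q}) * (1 / l g)` (`Finset.sum_ite`, `Finset.sum_const`, `nsmul_eq_mul`), and `#{Q | g ∈ Q} = lam p (zpowers g)` (`zpowers_le`; `Nat.card_eq_fintype_card`, `Fintype.card_subtype`).
* `g ∈ E`: `zpowers g` is a `p`-group (`IsPGroup.of_card`, `Nat.card_zpowers`), contained in a Sylow subgroup (`IsPGroup.exists_le_sylow`), so `lam > 0` and the term is `1` (`mul_one_div_cancel`).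
* `g ∉ E`: no Sylow subgroup contains `g` (an element of a `p`-group has order `p ^ k`: `IsPGroup.iff_orderOf`/`(Q.isPGroup' ⟨g,_⟩)` + `Subgroup.orderOf_mk`, `(Nat.dvd_prime_pow ..)`, `orderOf_dvd_of_pow_eq_one`), so `lam = 0` and the term is `0`.
So the sum is `∑ g, if g ∈ E then 1 else 0 = Nat.card E` (`Finset.sum_boole`, `Fintype.card_subtype`, `Nat.card_eq_fintype_card`). -/
theorem card_eq {G : Type*} [Group G] [Finite G] (p : ℕ) [Fact p.Prime] :
    (Nat.card {g : G // ∃ k : ℕ, orderOf g = p ^ k} : ℝ) =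
      ∑ᶠ Q : Sylow p G, ∑ᶠ x : ↥(Q : Subgroup G), (1 / (lam p (zpowers (x : G)) : ℝ)) := by
  classical
  haveI := Fintype.ofFinite G
  haveI := Fintype.ofFinite (Sylow p G)
  have hp : p.Prime := Fact.out
  rw [finsum_eq_sum_of_fintype]
  have h1 : ∀ Q : Sylow p G, ∑ᶠ x : ↥(Q : Subgroup G), (1 / (lam p (zpowers (x : G)) : ℝ))
      = ∑ g : G, if g ∈ (Q : Subgroup G) then (1 / (lam p (zpowers g) : ℝ)) else 0 := by
    intro Q
    rw [finsum_eq_sum_of_fintype, ← Finset.sum_filter]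
    exact (Finset.sum_subtype (Finset.univ.filter (· ∈ (Q : Subgroup G))) (by simp)
      (fun g => 1 / (lam p (zpowers g) : ℝ))).symm
  simp only [h1]
  rw [Finset.sum_comm]
  have h2 : ∀ g : G, (∑ Q : Sylow p G,
      if g ∈ (Q : Subgroup G) then (1 / (lam p (zpowers g) : ℝ)) else 0)
      = if (∃ k : ℕ, orderOf g = p ^ k) then 1 else 0 := by
    intro g
    rw [← Finset.sum_filter, Finset.sum_const, nsmul_eq_mul]
    have hcard : (Finset.univ.filter (fun Q : Sylow p G => g ∈ (Q : Subgroup G))).card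
        = lam p (zpowers g) := by
      unfold lam
      rw [Nat.card_eq_fintype_card, Fintype.card_subtype]
      congr 1
      ext Q
      simp [zpowers_le]
    rw [hcard]
    split_ifs with hg
    · have hpos : lam p (zpowers g) ≠ 0 := by
        obtain ⟨k, hk⟩ := hg
        have hpg : IsPGroup p (zpowers g) :=
          IsPGroup.of_card (n := k) (by rw [Nat.card_zpowers, hk])
        obtain ⟨Q, hQ⟩ := hpg.exists_le_sylow
        unfold lam
        haveI : Nonempty {Q : Sylow p G // zpowers g ≤ (Q : Subgroup G)} := ⟨⟨Q, hQ⟩⟩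
        exact Nat.card_pos.ne'
      exact mul_one_div_cancel (by exact_mod_cast hpos)
    · have hz : lam p (zpowers g) = 0 := by
        rw [← hcard, Finset.card_eq_zero, Finset.filter_eq_empty_iff]
        intro Q _ hgQ
        apply hg
        obtain ⟨k, hk⟩ := (IsPGroup.iff_orderOf.1 Q.isPGroup') ⟨g, hgQ⟩
        exact ⟨k, by rw [← hk, Subgroup.orderOf_mk]⟩
      rw [hz]
      simp
  simp only [h2]
  rw [Finset.sum_boole, Nat.card_eq_fintype_card, Fintype.card_subtype]

end Cfsg.Agent.Lib.H11GhDouble
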