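import Cfsg.Agent.Lib.H11GhCoset

/-! # Project 4091 (Gheri), piece Exact (60m) -/

set_option autoImplicit false

namespace Cfsg.Agent.Lib.H11GhExact

open Subgroup Cfsg.Agent.Lib.H11GhDefs

/-- **Coprime action: `|C_W(H)| = |C_N(H)| |C_{W/N}(H)|`.**

SKETCH.  `f : ↥(Fx φ H) →* ↥(Fx (quo φ N hN) H)`, `w ↦ ⟨(w : W ⧸ N), _⟩` (`quo_mk`, `mem_Fx`).
* `f` is surjective: a fixed point of `H` in `W ⧸ N` is `(w : W ⧸ N)` (`QuotientGroup.mk_surjective`) with `((φ x w : W) : W ⧸ N) = w` for `x ∈ H`, i.e. `w⁻¹ * φ x w ∈ N` (`QuotientGroup.eq`).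
  Apply `H11GhCoset.exists_fixed p (hP.to_subgroup H) (φ.comp H.subtype) N _ hcop w _`: there is `n ∈ N` with `w * n ∈ Fx φ H`, and `((w * n : W) : W ⧸ N) = w`.
* `ker f` = the elements of `Fx φ H` lying in `N` (`QuotientGroup.eq_one_iff`), in bijection with `Fx (res φ N hN) H` (`res_apply`, `Subtype.ext`).
* `Nat.card (Fx φ H) = Nat.card f.ker * Nat.card (range)`: `Subgroup.card_eq_card_quotient_mul_card_subgroup f.ker` + `QuotientGroup.quotientKerEquivOfSurjective` (`Nat.card_congr`). -/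
theorem fx_eq {P W : Type*} [Group P] [Group W] [Finite W] (p : ℕ) [Fact p.Prime]
    (hP : IsPGroup p P) (φ : P →* MulAut W) (N : Subgroup W) [N.Normal] (hN : Inv φ N)
    (hcop : (Nat.card N).Coprime p) (H : Subgroup P) :
    fx φ H = fx (res φ N hN) H * fx (quo φ N hN) H := by
  let f : ↥(Fx φ H) →* ↥(Fx (quo φ N hN) H) :=
    { toFun := fun w => ⟨((w : W) : W ⧸ N), fun x hx => by rw [quo_mk, w.2 x hx]⟩
      map_one' := rfl
      map_mul' := fun a b => rfl }
  have hsurj : Function.Surjective f := by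
    rintro ⟨wq, hwq⟩
    obtain ⟨w, rfl⟩ := QuotientGroup.mk_surjective wq
    have hw : ∀ x : H, w⁻¹ * (φ.comp H.subtype) x w ∈ N := by
      intro x
      have := hwq x x.2
      rw [quo_mk] at this
      exact QuotientGroup.eq.1 this.symm
    obtain ⟨n, hn, hfix⟩ := H11GhCoset.exists_fixed p (hP.to_subgroup H) (φ.comp H.subtype) N
      (fun x w hw => hN x w hw) hcop w hw
    refine ⟨⟨w * n, fun x hx => hfix ⟨x, hx⟩⟩, Subtype.ext ?_⟩
    show ((w * n : W) : W ⧸ N) = w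
    exact QuotientGroup.mk_mul_of_mem w hn
  have hker : Nat.card f.ker = fx (res φ N hN) H := by
    unfold fx
    apply Nat.card_congr
    refine ⟨fun w => ⟨⟨((w : Fx φ H) : W),
        (QuotientGroup.eq_one_iff _).1 (congrArg Subtype.val w.2)⟩,
        fun x hx => Subtype.ext (w.1.2 x hx)⟩,
      fun n => ⟨⟨((n : N) : W), fun x hx => congrArg Subtype.val (n.2 x hx)⟩,
        Subtype.ext ((QuotientGroup.eq_one_iff _).2 n.1.2)⟩, ?_, ?_⟩
    · intro w
      rfl
    · intro n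
      rfl
  have h1 := Subgroup.card_eq_card_quotient_mul_card_subgroup f.ker
  have h2 : Nat.card (↥(Fx φ H) ⧸ f.ker) = fx (quo φ N hN) H :=
    Nat.card_congr (QuotientGroup.quotientKerEquivOfSurjective f hsurj).toEquiv
  rw [h2, hker] at h1
  unfold fx at h1 ⊢
  rw [h1, mul_comm]

end Cfsg.Agent.Lib.H11GhExact
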