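import Cfsg.Agent.Lib.H11GhStarMul

/-! # Project 4091 (Gheri), piece StarQ -/

set_option autoImplicit false

namespace Cfsg.Agent.Lib.H11GhStarQ

open Subgroup Cfsg.Agent.Lib.H11GhDefs

/-- **From abelian groups to `q`-groups** (induction along the centre). -/
theorem star_pgroup.{u, v} {P : Type u} [Group P] [Finite P] (p q : ℕ) [Fact p.Prime]
    [Fact q.Prime] (hP : IsPGroup p P)
    (hab : ∀ (V : Type v) [CommGroup V] [Finite V] (ψ : P →* MulAut V),
      (Nat.card V).Coprime p → Star p ψ) :
    ∀ (W : Type v) [Group W] [Finite W] (φ : P →* MulAut W), IsPGroup q W →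
      (Nat.card W).Coprime p → Star p φ := by
  have key : ∀ n : ℕ, ∀ (W : Type v) [Group W] [Finite W] (φ : P →* MulAut W), Nat.card W = n →
      IsPGroup q W → (Nat.card W).Coprime p → Star p φ := by
    intro n
    induction n using Nat.strong_induction_on with
    | _ n ih =>
      intro W _ _ φ hn hq hcop
      rcases subsingleton_or_nontrivial W with hsub | hnt
      · letI : CommGroup W :=
          { (inferInstance : Group W) with mul_comm := fun a b => Subsingleton.elim _ _ }
        exact hab W φ hcop
      · have hN : Inv φ (Subgroup.center W) := by
          intro x w hw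
          rw [Subgroup.mem_center_iff] at hw ⊢
          intro g
          have h1 := hw (φ x⁻¹ g)
          have h2 := congrArg (φ x) h1
          rw [map_mul, map_mul, phi_apply_inv] at h2
          exact h2
        have h1 : Star p (res φ (center W) hN) := by
          letI : CommGroup ↥(center W) :=
            { (inferInstance : Group ↥(center W)) with
              mul_comm := fun a b => Subtype.ext (Subgroup.mem_center_iff.mp b.2 a) }
          exact hab ↥(center W) (res φ (center W) hN)
            (Nat.Coprime.coprime_dvd_left (Subgroup.card_subgroup_dvd_card _) hcop)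
        haveI : Nontrivial (center W) := hq.center_nontrivial
        have hlt : Nat.card (W ⧸ center W) < n := by
          rw [← hn, Subgroup.card_eq_card_quotient_mul_card_subgroup (center W)]
          have h3 : 1 < Nat.card (center W) := Finite.one_lt_card
          have h4 : 0 < Nat.card (W ⧸ center W) := Nat.card_pos
          nlinarith
        have h2 : Star p (quo φ (center W) hN) :=
          ih _ hlt (W ⧸ center W) (quo φ (center W) hN) rfl (hq.to_quotient _)
            (Nat.Coprime.coprime_dvd_left (Subgroup.card_quotient_dvd_card _) hcop)
        exact H11GhStarMul.star_of p hP φ (center W) hN hcop h1 h2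
  intro W _ _ φ hq hcop
  exact key _ W φ rfl hq hcop

end Cfsg.Agent.Lib.H11GhStarQ
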