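import Cfsg.Agent.Lib.H11GhStarSyl
import Cfsg.Agent.Lib.H11GhStarQ
import Cfsg.Agent.Lib.H11GhAbStar

/-! # Project 4091 (Gheri): `Star` for every coprime action of a `p`-group -/

set_option autoImplicit false

namespace Cfsg.Agent.Lib.H11GhStarAll

open Subgroup Cfsg.Agent.Lib.H11GhDefs

/-- `(∏_{x ∈ P} |C_W(x)|)^p ≤ |W|^|P| |C_W(P)|^((p-1)|P|)` for a `p`-group `P` acting on a `p'`-group `W`. -/
theorem star_all.{u, v} (p : ℕ) [Fact p.Prime] (P : Type u) [Group P] [Finite P]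
    (hP : IsPGroup p P) (W : Type v) [Group W] [Finite W] (φ : P →* MulAut W)
    (hcop : (Nat.card W).Coprime p) : Star p φ := by
  refine Cfsg.Agent.Lib.H11GhStarSyl.star_of_sylow p hP φ hcop ?_
  intro q S hS hq hSq
  haveI : Fact q.Prime := ⟨hq⟩
  refine Cfsg.Agent.Lib.H11GhStarQ.star_pgroup p q hP
    (fun V _ _ ψ h => Cfsg.Agent.Lib.H11GhAbStar.star_comm p P hP V ψ h) ↥S (res φ S hS) hSq ?_
  exact Nat.Coprime.coprime_dvd_left (Subgroup.card_subgroup_dvd_card S) hcop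

end Cfsg.Agent.Lib.H11GhStarAll
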