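import Cfsg.Agent.Lib.H11GhBridge
import Cfsg.Agent.Lib.H11GhStarAll

/-! # Project 4091 (Gheri), piece Factor (45m) -/

set_option autoImplicit false

namespace Cfsg.Agent.Lib.H11GhFactor

open Subgroup Cfsg.Agent.Lib.H11GhDefs Cfsg.Agent.Lib.H11GhDefs2 Cfsg.Agent.Lib.H11CaDefs

/-- **The inequality for one `p'`-factor `M'/M`.**
SKETCH.  `H11GhStarAll.star_all p ↥P P.isPGroup' _ (act P M M') _` with `Nat.card (↥M' ⧸ M.subgroupOf M') = M.relIndex M'` (definition of `relIndex`/`Subgroup.index`: `rfl` or `Subgroup.index_eq_card`).  `unfold Star`.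
Rewrite with `H11GhBridge.fx_act P M M' hle K`: `K = zpowers x`: `(zpowers x).map P.subtype = zpowers (x : G)` (`MonoidHom.map_zpowers`); `K = ⊤`: `(⊤ : Subgroup ↥P).map P.subtype = P` (`← MonoidHom.range_eq_map`, `Subgroup.range_subtype`);
`K = ⊥`: `fx (act ..) ⊥ = Nat.card (↥M' ⧸ _)` (`Fx φ ⊥ = ⊤`: `mem_bot`, `map_one`; `Subgroup.card_top`) and `(⊥ : Subgroup ↥P).map _ = ⊥` (`Subgroup.map_bot`).  (`finprod_congr`.) -/
theorem factor_ineq {G : Type*} [Group G] [Finite G] (p : ℕ) [Fact p.Prime] (P : Sylow p G)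
    (M M' : Subgroup G) [M.Normal] [M'.Normal] (hle : M ≤ M')
    (hidx : (M.relIndex M').Coprime p) :
    (∏ᶠ x : ↥(P : Subgroup G), Nat.card (Cen (zpowers (x : G)) M M') / Nat.card M) ^ p ≤
      (Nat.card (Cen (⊥ : Subgroup G) M M') / Nat.card M) ^ Nat.card (P : Subgroup G) *
        (Nat.card (Cen (P : Subgroup G) M M') / Nat.card M) ^
          ((p - 1) * Nat.card (P : Subgroup G)) := by
  have hcard : Nat.card (↥M' ⧸ M.subgroupOf M') = M.relIndex M' := rfl
  have hstar := Cfsg.Agent.Lib.H11GhStarAll.star_all p ↥(P : Subgroup G) P.isPGroup' _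
    (act (P : Subgroup G) M M') (by rw [hcard]; exact hidx)
  unfold H11GhDefs.Star at hstar
  have h1 : ∀ x : ↥(P : Subgroup G), fx (act (P : Subgroup G) M M') (zpowers x) =
      Nat.card (Cen (zpowers (x : G)) M M') / Nat.card M := by
    intro x
    rw [H11GhBridge.fx_act (P : Subgroup G) M M' hle (zpowers x), MonoidHom.map_zpowers]
    rfl
  have h2 : fx (act (P : Subgroup G) M M') ⊤ =
      Nat.card (Cen (P : Subgroup G) M M') / Nat.card M := by
    rw [H11GhBridge.fx_act (P : Subgroup G) M M' hle ⊤, ← MonoidHom.range_eq_map,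
      Subgroup.range_subtype]
  have h3 : Nat.card (↥M' ⧸ M.subgroupOf M') =
      Nat.card (Cen (⊥ : Subgroup G) M M') / Nat.card M := by
    rw [← Subgroup.map_bot (P : Subgroup G).subtype,
      ← H11GhBridge.fx_act (P : Subgroup G) M M' hle ⊥]
    unfold fx
    have : Fx (act (P : Subgroup G) M M') ⊥ = ⊤ := by
      rw [eq_top_iff]
      intro w _
      rw [mem_Fx]
      intro x hx
      rw [mem_bot] at hx
      rw [hx, map_one, MulAut.one_apply]
    rw [this, Subgroup.card_top]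
  rw [finprod_congr h1, h2, h3] at hstar
  exact hstar

end Cfsg.Agent.Lib.H11GhFactor
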