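import Cfsg.Agent.Lib.H11GhDefs

/-! # Project 4091 (Gheri), piece FxRes (20m) -/

set_option autoImplicit false

namespace Cfsg.Agent.Lib.H11GhFxRes

open Subgroup Cfsg.Agent.Lib.H11GhDefs

/-- fixed points in an invariant subgroup.
SKETCH.  `Nat.card_congr`: `⟨⟨w, hwS⟩, h⟩ ↦ ⟨w, _, hwS⟩`; `mem_Fx`, `res_apply`, `Subtype.ext_iff`, `Subgroup.mem_inf`. -/
theorem fx_res {P W : Type*} [Group P] [Group W] (φ : P →* MulAut W) (S : Subgroup W)
    (hS : Inv φ S) (H : Subgroup P) : fx (res φ S hS) H = Nat.card ↥(Fx φ H ⊓ S) := by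
  unfold fx
  refine Nat.card_congr
    { toFun := fun w => ⟨((w : S) : W), ?_, (w : S).2⟩
      invFun := fun w => ⟨⟨(w : W), w.2.2⟩, ?_⟩
      left_inv := fun w => rfl
      right_inv := fun w => rfl }
  · intro x hx
    have := w.2 x hx
    exact congrArg Subtype.val this
  · intro x hx
    apply Subtype.ext
    exact w.2.1 x hx

end Cfsg.Agent.Lib.H11GhFxRes
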