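import Cfsg.Agent.Lib.H11GhDefs

/-! # Project 4091 (Gheri), piece Indep (60m) -/

set_option autoImplicit false

namespace Cfsg.Agent.Lib.H11GhIndep

open Subgroup Cfsg.Agent.Lib.H11GhDefs

/-- the stabiliser of a vector -/
def stab {P V : Type*} [Group P] [CommGroup V] (φ : P →* MulAut V) (v : V) : Subgroup P where
  carrier := {h | φ h v = v}
  mul_mem' := by
    intro a b ha hb
    have ha' : φ a v = v := ha
    have hb' : φ b v = v := hb
    show φ (a * b) v = v
    rw [map_mul, MulAut.mul_apply, hb', ha']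
  one_mem' := by
    show φ 1 v = v
    rw [map_one]
    rfl
  inv_mem' := by
    intro a ha
    have ha' : φ a v = v := ha
    show φ a⁻¹ v = v
    have h1 := phi_inv_apply φ a v
    rw [ha'] at h1
    exact h1

theorem comm_apply {P V : Type*} [Group P] [CommGroup V] (φ : P →* MulAut V) {g k : P}
    (h : Commute g k) (v : V) : φ g (φ k v) = φ k (φ g v) := by
  rw [← MulAut.mul_apply, ← map_mul, h.eq, map_mul, MulAut.mul_apply]

/-- **Independence of the subgroups `C_V(x z^i)`, `0 ≤ i < p`, when `C_V(z) = 1`** (`V` abelian).  START FIRST.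

SKETCH.  `Finset.induction_on S` (generalizing `w`).  Facts: all `φ (x ^ a * z ^ b)` commute (`hxz`, `map_mul`, `MulAut.mul_apply`).  If `φ (x * z ^ i) v = v` then `φ x v = φ (z ^ i)⁻¹ v` (apply `φ (z^i)⁻¹`; `phi_inv_apply`).
Step `insert j S`: from `w j * ∏ i ∈ S, w i = 1`, applying `φ x` and `φ (z ^ j)⁻¹` (`map_prod`, `map_mul`, `map_one`) and dividing:
`∏ i ∈ S, w' i = 1` with `w' i := φ (z ^ i)⁻¹ (w i) * (φ (z ^ j)⁻¹ (w i))⁻¹` (the `j`-terms cancel; `Finset.prod_mul_distrib`, `Finset.prod_inv_distrib`).  `w' i` is again fixed by `φ (x * z ^ i)`.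
By induction `w' i = 1`, so `φ (z ^ i)⁻¹ (w i) = φ (z ^ j)⁻¹ (w i)`, so `w i` is fixed by `φ (z ^ j * (z ^ i)⁻¹)`, an element `z ^ (k : ℤ)`, `k = j - i`, `0 < |k| < p`, so `z ∈ zpowers (z ^ k)`
(there is `m` with `(z ^ k) ^ m = z`: `k` is invertible modulo `p = orderOf z`; `Int.gcd_eq_gcd_ab`/`Nat.Coprime`, `zpow_mul`, `zpow_eq_zpow_iff_modEq`, or `orderOf_pow_coprime`/`Subgroup.zpowers_eq_zpowers...`/`mem_zpowers_pow_iff`), hence `φ z (w i) = w i` and `w i = 1` by `hfix`.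
Finally `w j = 1` from the product. -/
theorem indep {P V : Type*} [Group P] [CommGroup V] (φ : P →* MulAut V) (p : ℕ) [Fact p.Prime]
    (x z : P) (hxz : Commute x z) (hz : orderOf z = p) (hfix : ∀ v : V, φ z v = v → v = 1)
    (S : Finset ℕ) (hS : S ⊆ Finset.range p) (w : ℕ → V)
    (hw : ∀ i ∈ S, φ (x * z ^ i) (w i) = w i) (hprod : ∏ i ∈ S, w i = 1) : ∀ i ∈ S, w i = 1 := by
  classical
  induction S using Finset.induction_on generalizing w with
  | empty =>
    intro i hi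
    exact absurd hi (Finset.notMem_empty i)
  | insert j S hj ih =>
    have hSp : S ⊆ Finset.range p := fun i hi => hS (Finset.mem_insert_of_mem hi)
    have hjp : j < p := Finset.mem_range.1 (hS (Finset.mem_insert_self j S))
    rw [Finset.prod_insert hj] at hprod
    have F1 : ∀ i v, φ (x * z ^ i) v = v → φ x v = φ (z ^ i)⁻¹ v := by
      intro i v hv
      have h1 : φ (z ^ i) (φ x v) = v := by
        rw [← MulAut.mul_apply, ← map_mul, ← (hxz.pow_right i).eq]
        exact hv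
      calc φ x v = φ (z ^ i)⁻¹ (φ (z ^ i) (φ x v)) := (phi_inv_apply φ (z ^ i) (φ x v)).symm
        _ = φ (z ^ i)⁻¹ v := by rw [h1]
    have E1 : φ (z ^ j)⁻¹ (w j) * ∏ i ∈ S, φ (z ^ i)⁻¹ (w i) = 1 := by
      have h1 := congrArg (φ x) hprod
      rw [map_mul, map_prod, map_one, F1 j (w j) (hw j (Finset.mem_insert_self j S))] at h1
      rw [← h1]
      congr 1
      apply Finset.prod_congr rfl
      intro i hi
      exact (F1 i (w i) (hw i (Finset.mem_insert_of_mem hi))).symm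
    have E2 : φ (z ^ j)⁻¹ (w j) * ∏ i ∈ S, φ (z ^ j)⁻¹ (w i) = 1 := by
      have h1 := congrArg (φ (z ^ j)⁻¹) hprod
      rwa [map_mul, map_prod, map_one] at h1
    have E3 : ∏ i ∈ S, (φ (z ^ i)⁻¹ (w i) * (φ (z ^ j)⁻¹ (w i))⁻¹) = 1 := by
      rw [Finset.prod_mul_distrib, Finset.prod_inv_distrib]
      have h1 : ∏ i ∈ S, φ (z ^ i)⁻¹ (w i) = ∏ i ∈ S, φ (z ^ j)⁻¹ (w i) :=
        mul_left_cancel (E1.trans E2.symm)
      rw [h1, mul_inv_cancel]
    have hw' : ∀ i ∈ S, φ (x * z ^ i) (φ (z ^ i)⁻¹ (w i) * (φ (z ^ j)⁻¹ (w i))⁻¹)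
        = φ (z ^ i)⁻¹ (w i) * (φ (z ^ j)⁻¹ (w i))⁻¹ := by
      intro i hi
      have hwi := hw i (Finset.mem_insert_of_mem hi)
      have c1 : Commute (x * z ^ i) (z ^ i)⁻¹ :=
        ((hxz.pow_right i).mul_left (Commute.refl _)).inv_right
      have c2 : Commute (x * z ^ i) (z ^ j)⁻¹ :=
        ((hxz.pow_right j).mul_left ((Commute.refl z).pow_pow i j)).inv_right
      rw [map_mul, map_inv (φ (x * z ^ i)), comm_apply φ c1, comm_apply φ c2, hwi]
    have h1 := ih hSp (fun i => φ (z ^ i)⁻¹ (w i) * (φ (z ^ j)⁻¹ (w i))⁻¹) hw' E3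
    have hS1 : ∀ i ∈ S, w i = 1 := by
      intro i hi
      have hip : i < p := Finset.mem_range.1 (hSp hi)
      have hij : i ≠ j := fun e => hj (e ▸ hi)
      have h2 : φ (z ^ i)⁻¹ (w i) = φ (z ^ j)⁻¹ (w i) := mul_inv_eq_one.1 (h1 i hi)
      have h3 : z ^ j * (z ^ i)⁻¹ ∈ stab φ (w i) := by
        show φ (z ^ j * (z ^ i)⁻¹) (w i) = w i
        rw [map_mul, MulAut.mul_apply, h2, phi_apply_inv]
      have h4 : z ^ j * (z ^ i)⁻¹ ≠ 1 := by
        intro e
        have e2 : z ^ j = z ^ i := mul_inv_eq_one.1 e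
        exact hij (pow_injOn_Iio_orderOf (by rw [Set.mem_Iio, hz]; exact hip)
          (by rw [Set.mem_Iio, hz]; exact hjp) e2.symm)
      have h5 : z ∈ Subgroup.zpowers (z ^ j * (z ^ i)⁻¹) := by
        have hcard : Nat.card (Subgroup.zpowers z) = p := by rw [Nat.card_zpowers, hz]
        have hmem : z ^ j * (z ^ i)⁻¹ ∈ Subgroup.zpowers z :=
          mul_mem (Subgroup.npow_mem_zpowers z j) (inv_mem (Subgroup.npow_mem_zpowers z i))
        have h6 := mem_zpowers_of_prime_card hcard (g := (⟨_, hmem⟩ : Subgroup.zpowers z))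
          (g' := ⟨z, Subgroup.mem_zpowers z⟩) (fun e => h4 (congrArg Subtype.val e))
        obtain ⟨k, hk⟩ := h6
        exact ⟨k, by simpa using congrArg Subtype.val hk⟩
      have h6 : z ∈ stab φ (w i) := (Subgroup.zpowers_le.2 h3) h5
      exact hfix _ h6
    intro i hi
    rcases Finset.mem_insert.1 hi with rfl | hi
    · rw [Finset.prod_eq_one hS1, mul_one] at hprod
      exact hprod
    · exact hS1 i hi

end Cfsg.Agent.Lib.H11GhIndep
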