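import Cfsg.Agent.Lib.H11GhIndep

/-! # Project 4091 (Gheri), piece IndepCard (50m) -/

set_option autoImplicit false

namespace Cfsg.Agent.Lib.H11GhIndepCard

open Subgroup Cfsg.Agent.Lib.H11GhDefs

/-- **`∏_{i<p} |C_V(x z^i)| ≤ |V|`.**
SKETCH.  `F i := Fx φ (zpowers (x * z ^ i))`; `v ∈ F i → φ (x * z ^ i) v = v` (`mem_Fx`, `mem_zpowers`).  The map `Θ : (∀ i : Fin p, ↥(F i)) → V`, `f ↦ ∏ i, (f i : V)` is injective:
if `Θ f = Θ g` then `w i := if h : i < p then (f ⟨i,h⟩ : V) * (g ⟨i,h⟩ : V)⁻¹ else 1` satisfies the hypotheses of `H11GhIndep.indep` with `S = Finset.range p`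
(`Finset.prod_range`/`Fin.prod_univ_eq_prod_range`, `Finset.prod_mul_distrib`, `Finset.prod_inv_distrib`), so `f = g`.
`Nat.card_le_card_of_injective`, `Nat.card_pi` (`Nat.card (∀ i, F i) = ∏ i, Nat.card (F i)`), `Fin.prod_univ_eq_prod_range (fun i => fx φ (zpowers (x * z ^ i))) p`. -/
theorem prod_le {P V : Type*} [Group P] [CommGroup V] [Finite V] (φ : P →* MulAut V) (p : ℕ)
    [Fact p.Prime] (x z : P) (hxz : Commute x z) (hz : orderOf z = p)
    (hfix : ∀ v : V, φ z v = v → v = 1) :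
    ∏ i ∈ Finset.range p, fx φ (zpowers (x * z ^ i)) ≤ Nat.card V := by
  classical
  have hFfix : ∀ (i : ℕ) (v : V), v ∈ Fx φ (zpowers (x * z ^ i)) → φ (x * z ^ i) v = v :=
    fun i v hv => hv _ (mem_zpowers _)
  have hinj : Function.Injective
      (fun f : (∀ i : Fin p, ↥(Fx φ (zpowers (x * z ^ (i : ℕ))))) => ∏ i, (f i : V)) := by
    intro f g hfg
    have hfg' : ∏ i, (f i : V) = ∏ i, (g i : V) := hfg
    obtain ⟨w, hw⟩ : ∃ w : ℕ → V, w = fun i =>
        if h : i < p then (f ⟨i, h⟩ : V) * (g ⟨i, h⟩ : V)⁻¹ else 1 := ⟨_, rfl⟩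
    have hwi : ∀ i : Fin p, w (i : ℕ) = (f i : V) * (g i : V)⁻¹ := by
      intro i
      rw [hw]
      simp only [dif_pos i.2, Fin.eta]
    have h1 : ∀ i ∈ Finset.range p, φ (x * z ^ i) (w i) = w i := by
      intro i hi
      have hip := Finset.mem_range.1 hi
      have h2 : w i = (f ⟨i, hip⟩ : V) * (g ⟨i, hip⟩ : V)⁻¹ := hwi ⟨i, hip⟩
      rw [h2, map_mul, map_inv, hFfix i _ (f ⟨i, hip⟩).2, hFfix i _ (g ⟨i, hip⟩).2]
    have h2 : ∏ i ∈ Finset.range p, w i = 1 := by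
      rw [← Fin.prod_univ_eq_prod_range w p]
      simp only [hwi]
      rw [Finset.prod_mul_distrib, Finset.prod_inv_distrib, hfg', mul_inv_cancel]
    have h3 := Cfsg.Agent.Lib.H11GhIndep.indep φ p x z hxz hz hfix (Finset.range p)
      (Finset.Subset.refl _) w h1 h2
    funext i
    apply Subtype.ext
    have h4 := h3 i (Finset.mem_range.2 i.2)
    rw [hwi i] at h4
    exact mul_inv_eq_one.1 h4
  have hcard := Nat.card_le_card_of_injective _ hinj
  rw [Nat.card_pi] at hcard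
  rw [← Fin.prod_univ_eq_prod_range (fun i => fx φ (zpowers (x * z ^ i))) p]
  exact hcard

end Cfsg.Agent.Lib.H11GhIndepCard
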