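import Cfsg.Agent.Lib.H11GhDefs2
import Cfsg.Agent.Lib.H11CaMain2

/-! # Project 4091 (Gheri), piece LamD (40m) -/

set_option autoImplicit false

namespace Cfsg.Agent.Lib.H11GhLamD

open Subgroup Cfsg.Agent.Lib.H11GhDefs Cfsg.Agent.Lib.H11GhDefs2 Cfsg.Agent.Lib.H11CaDefs

/-- **`λ(H) ∏ |C_i(P)| = ∏ |C_i(H)|`** (from project 4088).
SKETCH.  `Cfsg.Agent.Lib.H11CaLamP.card_Lam p H P : Nat.card (Lam H P) = Nat.card {Q // H ≤ Q} * Nat.card (normalizer P)` and `Cfsg.Agent.Lib.H11CaMain2.card_Lam_prod p H hH P n M h0 hn hmono hnormal hfac : Nat.card (Lam H P) = Nat.card P * D p M H` (`rfl`/`unfold D`).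
The same two for `H := P` (`P.isPGroup'`), where `Nat.card {Q : Sylow p G // (P : Subgroup G) ≤ Q} = 1` (`Q = P` by `Sylow.ext (P.is_maximal' Q.isPGroup' h).symm`…; `Nat.card_eq_one_iff_unique`/`Nat.card_unique`).
So `lam H * (|P| * D P) = |P| * D H`; cancel `|P| > 0` (`Nat.eq_of_mul_eq_mul_left`). -/
theorem lam_mul {G : Type*} [Group G] [Finite G] (p : ℕ) [Fact p.Prime] (H : Subgroup G)
    (hH : IsPGroup p H) (P : Sylow p G) (n : ℕ) (M : Fin (n + 1) → Subgroup G) (h0 : M 0 = ⊥)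
    (hn : M (Fin.last n) = ⊤) (hmono : Monotone M) (hnormal : ∀ i, (M i).Normal)
    (hfac : ∀ i : Fin n, (∃ m : ℕ, (M i.castSucc).relIndex (M i.succ) = p ^ m) ∨
      ((M i.castSucc).relIndex (M i.succ)).Coprime p) :
    lam p H * D p M (P : Subgroup G) = D p M H := by
  have e1 := Cfsg.Agent.Lib.H11CaLamP.card_Lam p H P
  have e2 := Cfsg.Agent.Lib.H11CaMain2.card_Lam_prod p H hH P n M h0 hn hmono hnormal hfac
  have e3 := Cfsg.Agent.Lib.H11CaLamP.card_Lam p (P : Subgroup G) P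
  have e4 := Cfsg.Agent.Lib.H11CaMain2.card_Lam_prod p (P : Subgroup G) P.isPGroup' P n M h0 hn
    hmono hnormal hfac
  have h1 : Nat.card {Q : Sylow p G // (P : Subgroup G) ≤ (Q : Subgroup G)} = 1 := by
    rw [Nat.card_eq_one_iff_unique]
    refine ⟨⟨?_⟩, ⟨⟨P, le_refl _⟩⟩⟩
    intro a b
    have ha : a.1 = P := Sylow.ext (P.is_maximal' a.1.isPGroup' a.2)
    have hb : b.1 = P := Sylow.ext (P.is_maximal' b.1.isPGroup' b.2)
    exact Subtype.ext (ha.trans hb.symm)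
  rw [h1, one_mul] at e3
  have hP : 0 < Nat.card (P : Subgroup G) := Nat.card_pos
  apply Nat.eq_of_mul_eq_mul_left hP
  show Nat.card (P : Subgroup G) * (Nat.card {Q : Sylow p G // H ≤ (Q : Subgroup G)} * _) =
    Nat.card (P : Subgroup G) * _
  unfold D
  rw [← e2, e1, ← e3, e4]
  ring

end Cfsg.Agent.Lib.H11GhLamD
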