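import Cfsg.Agent.Lib.H11GhLamD
import Cfsg.Agent.Lib.H11GhDIneq
import Cfsg.Agent.Lib.H11GhDPos

/-! # Project 4091 (Gheri), piece LamIneq (45m) -/

set_option autoImplicit false

namespace Cfsg.Agent.Lib.H11GhLamIneq

open Subgroup Cfsg.Agent.Lib.H11GhDefs Cfsg.Agent.Lib.H11GhDefs2 Cfsg.Agent.Lib.H11CaDefs

/-- **`(∏_{x ∈ P} λ(x))^p ≤ n^|P|`.**
SKETCH.  `d := D p M P > 0` (`H11GhDPos.d_pos`), `m := Nat.card P`, `L := ∏ᶠ x, lam p (zpowers x)`.  By `H11GhLamD.lam_mul` (`zpowers (x : G)` is a `p`-group: `P.isPGroup'.to_le (zpowers_le.2 x.2)`) `D p M (zpowers x) = lam p (zpowers x) * d`, so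
`∏ᶠ x, D p M (zpowers x) = L * d ^ m` (`finprod_eq_prod_of_fintype`, `Finset.prod_mul_distrib`, `Finset.prod_const`, `Nat.card_eq_fintype_card`).  `D p M ⊥ = lam p ⊥ * d` (`IsPGroup.of_bot`) and `lam p ⊥ = Nat.card (Sylow p G)` (`Nat.card_congr (Equiv.subtypeUnivEquiv fun _ => bot_le)`).
`H11GhDIneq.d_ineq`: `(L * d^m)^p ≤ (n * d)^m * d^((p-1) m)`, i.e. `L^p * d^(m p) ≤ n^m * d^(m p)` (`mul_pow`, `← pow_mul`, `← pow_add`, `m + (p-1) m = m p` as `p ≥ 1`); cancel (`Nat.le_of_mul_le_mul_right _ (pow_pos ..)`). -/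
theorem lam_ineq {G : Type*} [Group G] [Finite G] (p : ℕ) [Fact p.Prime] (P : Sylow p G) (n : ℕ)
    (M : Fin (n + 1) → Subgroup G) (h0 : M 0 = ⊥)
    (hn : M (Fin.last n) = ⊤) (hmono : Monotone M) (hnormal : ∀ i, (M i).Normal)
    (hfac : ∀ i : Fin n, (∃ m : ℕ, (M i.castSucc).relIndex (M i.succ) = p ^ m) ∨
      ((M i.castSucc).relIndex (M i.succ)).Coprime p) :
    (∏ᶠ x : ↥(P : Subgroup G), lam p (zpowers (x : G))) ^ p ≤
      Nat.card (Sylow p G) ^ Nat.card (P : Subgroup G) := by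
  classical
  have := Fintype.ofFinite ↥(P : Subgroup G)
  have hd : 0 < D p M (P : Subgroup G) := H11GhDPos.d_pos p n M hmono hnormal _
  set d := D p M (P : Subgroup G) with hdd
  set m := Nat.card (P : Subgroup G) with hm
  set L := ∏ᶠ x : ↥(P : Subgroup G), lam p (zpowers (x : G)) with hL
  have h1 : ∀ x : ↥(P : Subgroup G), D p M (zpowers (x : G)) = lam p (zpowers (x : G)) * d :=
    fun x => (H11GhLamD.lam_mul p _ (P.isPGroup'.to_le (zpowers_le.2 x.2)) P n M h0 hn hmono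
      hnormal hfac).symm
  have h2 : ∏ᶠ x : ↥(P : Subgroup G), D p M (zpowers (x : G)) = L * d ^ m := by
    rw [hL, finprod_eq_prod_of_fintype, finprod_eq_prod_of_fintype,
      Finset.prod_congr rfl (fun x _ => h1 x), Finset.prod_mul_distrib, Finset.prod_const,
      Finset.card_univ, hm, Nat.card_eq_fintype_card]
  have h3 : D p M ⊥ = Nat.card (Sylow p G) * d := by
    rw [← H11GhLamD.lam_mul p ⊥ IsPGroup.of_bot P n M h0 hn hmono hnormal hfac]
    congr 1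
    exact Nat.card_congr (Equiv.subtypeUnivEquiv fun _ => bot_le)
  have h4 := H11GhDIneq.d_ineq p P n M hmono hnormal
  rw [h2, h3] at h4
  have hp : 1 ≤ p := (Fact.out : p.Prime).one_lt.le
  have e1 : (L * d ^ m) ^ p = L ^ p * d ^ (m * p) := by
    rw [mul_pow, ← pow_mul]
  have e2 : (Nat.card (Sylow p G) * d) ^ m * d ^ ((p - 1) * m) =
      Nat.card (Sylow p G) ^ m * d ^ (m * p) := by
    rw [mul_pow, mul_assoc, ← pow_add]
    congr 2
    obtain ⟨r, rfl⟩ : ∃ r, p = r + 1 := ⟨p - 1, by omega⟩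
    simp only [Nat.add_sub_cancel]
    ring
  rw [e1, e2] at h4
  exact Nat.le_of_mul_le_mul_right h4 (pow_pos hd _)

end Cfsg.Agent.Lib.H11GhLamIneq
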