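import Cfsg.Agent.Lib.H11GhExact

/-! # Project 4091 (Gheri), piece StarMul -/

set_option autoImplicit false

namespace Cfsg.Agent.Lib.H11GhStarMul

open Subgroup Cfsg.Agent.Lib.H11GhDefs

/-- **`Star` is multiplicative along an invariant normal subgroup.** -/
theorem star_of {P W : Type*} [Group P] [Group W] [Finite P] [Finite W] (p : ℕ) [Fact p.Prime]
    (hP : IsPGroup p P) (φ : P →* MulAut W) (N : Subgroup W) [N.Normal] (hN : Inv φ N)
    (hcop : (Nat.card W).Coprime p) (h1 : Star p (res φ N hN)) (h2 : Star p (quo φ N hN)) :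
    Star p φ := by
  unfold H11GhDefs.Star at *
  have hcN : (Nat.card N).Coprime p :=
    Nat.Coprime.coprime_dvd_left (Subgroup.card_subgroup_dvd_card N) hcop
  have hfx := H11GhExact.fx_eq p hP φ N hN hcN
  have hW : Nat.card W = Nat.card N * Nat.card (W ⧸ N) := by
    rw [Subgroup.card_eq_card_quotient_mul_card_subgroup N, mul_comm]
  have hprod : ∏ᶠ x : P, fx φ (zpowers x)
      = (∏ᶠ x : P, fx (res φ N hN) (zpowers x)) * ∏ᶠ x : P, fx (quo φ N hN) (zpowers x) := by
    rw [← finprod_mul_distrib (Set.toFinite _) (Set.toFinite _)]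
    exact finprod_congr fun x => hfx _
  rw [hprod, hfx ⊤, hW, mul_pow, mul_pow, mul_pow]
  calc _ ≤ (Nat.card N ^ Nat.card P * fx (res φ N hN) ⊤ ^ ((p - 1) * Nat.card P))
        * (Nat.card (W ⧸ N) ^ Nat.card P * fx (quo φ N hN) ⊤ ^ ((p - 1) * Nat.card P)) :=
        Nat.mul_le_mul h1 h2
    _ = _ := by ring

end Cfsg.Agent.Lib.H11GhStarMul
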