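import Cfsg.Agent.Lib.H11GhSylProd
import Cfsg.Agent.Lib.H11GhFxRes

/-! # Project 4091 (Gheri), piece StarSyl -/

set_option autoImplicit false

namespace Cfsg.Agent.Lib.H11GhStarSyl

open Subgroup Cfsg.Agent.Lib.H11GhDefs

/-- **Reduction of `Star` to `q`-groups.** -/
theorem star_of_sylow {P W : Type*} [Group P] [Group W] [Finite P] [Finite W] (p : ℕ)
    [Fact p.Prime] (hP : IsPGroup p P) (φ : P →* MulAut W) (hcop : (Nat.card W).Coprime p)
    (h : ∀ (q : ℕ) (S : Subgroup W) (hS : Inv φ S), q.Prime → IsPGroup q S →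
      Star p (res φ S hS)) : Star p φ := by
  classical
  have hex : ∀ q : ℕ, ∃ S : Subgroup W, q.Prime →
      (Inv φ S ∧ IsPGroup q S ∧ Nat.card S = q ^ (Nat.card W).factorization q) := by
    intro q
    by_cases hq : q.Prime
    · haveI := Fact.mk hq
      obtain ⟨S, hS⟩ := H11GhSylEx.exists_inv_sylow p q hP φ hcop
      exact ⟨S, fun _ => ⟨hS, S.isPGroup', S.card_eq_multiplicity⟩⟩
    · exact ⟨⊥, fun h => absurd h hq⟩
  choose S hS using hex
  have hS' : ∀ q ∈ (Nat.card W).primeFactors,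
      Inv φ (S q) ∧ Nat.card (S q) = q ^ (Nat.card W).factorization q := fun q hq =>
    ⟨(hS q (Nat.prime_of_mem_primeFactors hq)).1, (hS q (Nat.prime_of_mem_primeFactors hq)).2.2⟩
  have hfx := H11GhSylProd.fx_eq_prod p hP φ hcop S hS'
  have hW : ∏ q ∈ (Nat.card W).primeFactors, Nat.card (S q) = Nat.card W := by
    rw [Finset.prod_congr rfl (fun q hq => (hS' q hq).2)]
    have h0 : Nat.card W ≠ 0 := Nat.card_pos.ne'
    have h1 := Nat.prod_factorization_pow_eq_self h0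
    rw [Nat.prod_factorization_eq_prod_primeFactors] at h1
    exact h1
  have hq : ∀ q ∈ (Nat.card W).primeFactors,
      (∏ᶠ x : P, Nat.card ↥(Fx φ (zpowers x) ⊓ S q)) ^ p ≤
        Nat.card (S q) ^ Nat.card P * Nat.card ↥(Fx φ ⊤ ⊓ S q) ^ ((p - 1) * Nat.card P) := by
    intro q hq
    have hqp := Nat.prime_of_mem_primeFactors hq
    have h1 := h q (S q) (hS q hqp).1 hqp (hS q hqp).2.1
    unfold H11GhDefs.Star at h1
    simp only [H11GhFxRes.fx_res] at h1
    exact h1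
  unfold H11GhDefs.Star
  haveI := Fintype.ofFinite P
  simp only [finprod_eq_prod_of_fintype] at hq ⊢
  calc (∏ x : P, fx φ (zpowers x)) ^ p
      = (∏ x : P, ∏ q ∈ (Nat.card W).primeFactors, Nat.card ↥(Fx φ (zpowers x) ⊓ S q)) ^ p := by
        simp only [hfx]
    _ = ∏ q ∈ (Nat.card W).primeFactors, (∏ x : P, Nat.card ↥(Fx φ (zpowers x) ⊓ S q)) ^ p := by
        rw [Finset.prod_comm, Finset.prod_pow]
    _ ≤ ∏ q ∈ (Nat.card W).primeFactors,
          (Nat.card (S q) ^ Nat.card P * Nat.card ↥(Fx φ ⊤ ⊓ S q) ^ ((p - 1) * Nat.card P)) :=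
        Finset.prod_le_prod (fun _ _ => Nat.zero_le _) hq
    _ = (∏ q ∈ (Nat.card W).primeFactors, Nat.card (S q)) ^ Nat.card P *
          (∏ q ∈ (Nat.card W).primeFactors, Nat.card ↥(Fx φ ⊤ ⊓ S q)) ^ ((p - 1) * Nat.card P) := by
        rw [Finset.prod_mul_distrib, Finset.prod_pow, Finset.prod_pow]
    _ = Nat.card W ^ Nat.card P * fx φ ⊤ ^ ((p - 1) * Nat.card P) := by
        rw [hW, ← hfx ⊤]

end Cfsg.Agent.Lib.H11GhStarSyl
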