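import Cfsg.Agent.Lib.H11GhDefs
import Cfsg.Agent.Lib.Helper66Coprime

/-! # Project 4091 (Gheri), piece SylConj (45m) -/

set_option autoImplicit false

namespace Cfsg.Agent.Lib.H11GhSylConj

open Subgroup Cfsg.Agent.Lib.H11GhDefs

/-- **Two invariant Sylow subgroups are conjugate under a fixed point.**
SKETCH.  `letI : MulDistribMulAction P W := MulDistribMulAction.compHom W φ`; `Inv φ S` gives `x • S = S` (`Sylow.ext`/`SetLike.ext`, `Helper66Coprime.sylow_mem_smul_iff`, use `hS x⁻¹` and `hS x`).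
`Cfsg.Agent.Lib.Helper66Coprime.exists_fixed_conj hP _ q S S' _ _` gives `n` fixed with `n • S = S'`; take `c := n` and `Helper66Coprime.sylow_mem_conj_smul_iff`. -/
theorem exists_conj {P W : Type*} [Group P] [Group W] [Finite W] (p q : ℕ) [Fact p.Prime]
    [Fact q.Prime] (hP : IsPGroup p P) (φ : P →* MulAut W) (hcop : (Nat.card W).Coprime p)
    (S S' : Sylow q W) (hS : Inv φ (S : Subgroup W)) (hS' : Inv φ (S' : Subgroup W)) :
    ∃ c ∈ Fx φ ⊤, ∀ w : W, w ∈ (S' : Subgroup W) ↔ c⁻¹ * w * c ∈ (S : Subgroup W) := by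
  let _ : MulDistribMulAction P W := MulDistribMulAction.compHom W φ
  have hsm : ∀ (x : P) (w : W), x • w = φ x w := fun _ _ => rfl
  have hinv : ∀ T : Sylow q W, Inv φ (T : Subgroup W) → ∀ x : P, x • T = T := by
    intro T hT x
    apply SetLike.ext
    intro w
    rw [Cfsg.Agent.Lib.Helper66Coprime.sylow_mem_smul_iff, hsm]
    constructor
    · intro h
      have h1 := hT x _ h
      rwa [phi_apply_inv] at h1
    · intro h
      exact hT x⁻¹ w h
  have hp : p.Prime := Fact.out
  obtain ⟨n, hn, hnS⟩ := Cfsg.Agent.Lib.Helper66Coprime.exists_fixed_conj hP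
    (fun hd => by
      have := Nat.Coprime.eq_one_of_dvd hcop.symm hd
      exact hp.one_lt.ne' this) q S S' (hinv S hS) (hinv S' hS')
  refine ⟨n, fun x _ => hn x, ?_⟩
  intro w
  rw [← hnS]
  exact Cfsg.Agent.Lib.Helper66Coprime.sylow_mem_conj_smul_iff n S w

end Cfsg.Agent.Lib.H11GhSylConj
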