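import Cfsg.Agent.Lib.H11GhDefs
import Cfsg.Agent.Lib.Helper66Coprime

/-! # Project 4091 (Gheri), piece SylEx (40m) -/

set_option autoImplicit false

namespace Cfsg.Agent.Lib.H11GhSylEx

open Subgroup Cfsg.Agent.Lib.H11GhDefs

/-- **Invariant Sylow subgroups exist.**
SKETCH.  `letI : MulDistribMulAction P W := MulDistribMulAction.compHom W φ` (so `x • w = φ x w`, by `rfl`); `Cfsg.Agent.Lib.Helper66Coprime.exists_fixed_sylow hP _ q` gives `Q` with `x • Q = Q` for all `x`;
`w ∈ Q → φ x w ∈ Q`: `Helper66Coprime.sylow_mem_smul_iff x Q (φ x w)` (`x⁻¹ • φ x w = w`, `phi_inv_apply`).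
(Or directly: `P` acts on `Sylow q W`, whose cardinality divides `Nat.card W`, `IsPGroup.nonempty_fixed_point_of_prime_not_dvd_card`.) -/
theorem exists_inv_sylow {P W : Type*} [Group P] [Group W] [Finite W] (p q : ℕ) [Fact p.Prime]
    [Fact q.Prime] (hP : IsPGroup p P) (φ : P →* MulAut W) (hcop : (Nat.card W).Coprime p) :
    ∃ S : Sylow q W, Inv φ (S : Subgroup W) := by
  letI : MulDistribMulAction P W := MulDistribMulAction.compHom W φ
  have hp : p.Prime := Fact.out
  have hN : ¬ p ∣ Nat.card W := by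
    intro h
    have := Nat.Coprime.eq_one_of_dvd hcop.symm h
    exact hp.one_lt.ne' this
  obtain ⟨Q, hQ⟩ := Cfsg.Agent.Lib.Helper66Coprime.exists_fixed_sylow (P := P) (N := W) hP hN q
  refine ⟨Q, ?_⟩
  intro x w hw
  have h1 := Cfsg.Agent.Lib.Helper66Coprime.sylow_mem_smul_iff x Q (φ x w)
  rw [hQ x] at h1
  apply h1.2
  have : x⁻¹ • (φ x w) = w := phi_inv_apply φ x w
  rw [this]
  exact hw

end Cfsg.Agent.Lib.H11GhSylEx
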