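import Cfsg.Agent.Lib.H11GhSylMax
import Cfsg.Agent.Lib.H11GhSylConj

/-! # Project 4091 (Gheri), piece SylFix -/

set_option autoImplicit false

namespace Cfsg.Agent.Lib.H11GhSylFix

open Subgroup Cfsg.Agent.Lib.H11GhDefs

/-- **`C_S(H)` is a Sylow `q`-subgroup of `C_W(H)`** for an invariant Sylow `q`-subgroup `S`. -/
theorem card_inf {P W : Type*} [Group P] [Group W] [Finite W] (p q : ℕ) [Fact p.Prime]
    [Fact q.Prime] (hP : IsPGroup p P) (φ : P →* MulAut W) (hcop : (Nat.card W).Coprime p)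
    (H : Subgroup P) (S : Sylow q W) (hS : Inv φ (S : Subgroup W)) :
    Nat.card ↥(Fx φ H ⊓ (S : Subgroup W)) = q ^ (fx φ H).factorization q := by
  have hq : q.Prime := Fact.out
  set ψ : ↥H →* MulAut W := φ.comp H.subtype with hψ
  have hFx : Fx ψ ⊤ = Fx φ H := by
    ext w
    simp only [mem_Fx]
    constructor
    · intro h x hx
      exact h ⟨x, hx⟩ (Subgroup.mem_top _)
    · intro h x _
      exact h x.1 x.2
  have hSψ : Inv ψ (S : Subgroup W) := fun x w hw => hS x.1 w hw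
  unfold fx
  set C := Fx φ H with hC
  have hCpos : Nat.card C ≠ 0 := Nat.card_pos.ne'
  have hqg : IsPGroup q ↥(C ⊓ (S : Subgroup W)) := S.isPGroup'.to_le inf_le_right
  obtain ⟨k, hk⟩ := IsPGroup.iff_card.1 hqg
  have hle : k ≤ (Nat.card C).factorization q := by
    have hdvd : q ^ k ∣ Nat.card C := hk ▸ Subgroup.card_dvd_of_le inf_le_left
    exact (hq.pow_dvd_iff_le_factorization hCpos).1 hdvd
  obtain ⟨T₀⟩ : Nonempty (Sylow q ↥C) := inferInstance
  set T : Subgroup W := (T₀ : Subgroup ↥C).map C.subtype with hT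
  have hTcard : Nat.card T = q ^ (Nat.card C).factorization q := by
    rw [Subgroup.card_map_of_injective C.subtype_injective]
    exact T₀.card_eq_multiplicity
  have hTq : IsPGroup q T := IsPGroup.of_card hTcard
  have hTC : T ≤ C := Subgroup.map_subtype_le _
  have hTi : Inv ψ T := by
    intro x w hw
    have : ψ x w = w := (hTC hw) x.1 x.2
    rw [this]
    exact hw
  obtain ⟨S', hS'i, hTS'⟩ :=
    Cfsg.Agent.Lib.H11GhSylMax.exists_sylow_ge p q (hP.to_subgroup H) ψ hcop T hTq hTi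
  obtain ⟨c, hc, hcw⟩ :=
    Cfsg.Agent.Lib.H11GhSylConj.exists_conj p q (hP.to_subgroup H) ψ hcop S S' hSψ hS'i
  rw [hFx] at hc
  have hinj : Nat.card T ≤ Nat.card ↥(C ⊓ (S : Subgroup W)) := by
    apply Nat.card_le_card_of_injective (fun t : T =>
      (⟨c⁻¹ * t.1 * c, ⟨C.mul_mem (C.mul_mem (C.inv_mem hc) (hTC t.2)) hc,
        (hcw t.1).1 (hTS' t.2)⟩⟩ : ↥(C ⊓ (S : Subgroup W))))
    intro a b hab
    have h1 : c⁻¹ * a.1 * c = c⁻¹ * b.1 * c := congrArg Subtype.val hab
    exact Subtype.ext (mul_left_cancel (mul_right_cancel h1))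
  rw [hTcard, hk] at hinj
  have hge : (Nat.card C).factorization q ≤ k := (Nat.pow_le_pow_iff_right hq.one_lt).1 hinj
  rw [hk, le_antisymm hle hge]

end Cfsg.Agent.Lib.H11GhSylFix
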