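import Cfsg.Agent.Lib.H11GhSylEx
import Cfsg.Agent.Lib.H11CaMMp

/-! # Project 4091 (Gheri), piece SylMax (75m) -/

set_option autoImplicit false

namespace Cfsg.Agent.Lib.H11GhSylMax

open Subgroup Cfsg.Agent.Lib.H11GhDefs

/-- **Every invariant `q`-subgroup lies in an invariant Sylow `q`-subgroup.**  START FIRST.

SKETCH.  Choose `T'` of maximal cardinality among the invariant `q`-subgroups containing `T` (finite set of subgroups; e.g. strong induction on `Nat.card W - Nat.card T`, generalizing `T`).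
If `Nat.card T' = q ^ (Nat.card W).factorization q`, then `T'` is a Sylow subgroup (`Sylow.ofCard`), done.  Otherwise let `L := normalizer (T' : Set W)`.
* `L` is invariant: `φ x` is an automorphism mapping `T'` onto `T'` (`map_eq_of_inv`, or `hTi x`, `hTi x⁻¹`, `phi_inv_apply`): for `g ∈ L`, `t ∈ T' ↔ φ x g * t * (φ x g)⁻¹ ∈ T'` by applying `φ x⁻¹` (`mem_normalizer_iff`).
* `T'` is not a Sylow subgroup of `W`, so `T' < L ⊓ Q` for a Sylow `Q ≥ T'` (`IsPGroup.exists_le_sylow`; normalizers grow in the `q`-group `Q`: `Group.normalizerCondition_of_isNilpotent`, cf. `Cfsg.Agent.Lib.H11CaMMp.lt_inf_normalizer`, which you may import).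
  Hence `L` contains a `q`-subgroup strictly larger than `T'`.
* `H11GhSylEx.exists_inv_sylow p q hP (res φ L _) _` gives an invariant Sylow `q`-subgroup `R` of `↥L`; `R' := R.map L.subtype` is an invariant `q`-subgroup of `W`; it contains `T'` (`T'.subgroupOf L` is a normal `q`-subgroup of `L`, so it lies in every Sylow subgroup: `IsPGroup.exists_le_sylow` + conjugacy, or `Sylow.normal...`/`Subgroup.Normal` + `MulAction.exists_smul_eq`) and
  `Nat.card R' > Nat.card T'` (Sylow subgroups of `L` have maximal order among `q`-subgroups of `L`: `Sylow.card_eq_multiplicity`/`IsPGroup.exists_le_sylow` + `Sylow.card_eq_card...` conjugacy).  Contradiction with maximality. -/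
theorem exists_sylow_ge {P W : Type*} [Group P] [Group W] [Finite W] (p q : ℕ) [Fact p.Prime]
    [Fact q.Prime] (hP : IsPGroup p P) (φ : P →* MulAut W) (hcop : (Nat.card W).Coprime p)
    (T : Subgroup W) (hT : IsPGroup q T) (hTi : Inv φ T) :
    ∃ S : Sylow q W, Inv φ (S : Subgroup W) ∧ T ≤ (S : Subgroup W) := by
  induction hn : Nat.card W - Nat.card T using Nat.strong_induction_on generalizing T with
  | _ n ih =>
  obtain ⟨Q, hTQ⟩ := hT.exists_le_sylow
  by_cases hEq : T = (Q : Subgroup W)
  · exact ⟨Q, hEq ▸ hTi, hTQ⟩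
  have hlt : T < (Q : Subgroup W) := lt_of_le_of_ne hTQ hEq
  have hgrow := Cfsg.Agent.Lib.H11CaMMp.lt_inf_normalizer q Q.2 hlt
  have hmem : ∀ (x : P) (w : W), φ x w ∈ T ↔ w ∈ T := fun x w =>
    ⟨fun h => by
      have := hTi x⁻¹ _ h
      rwa [phi_inv_apply] at this, hTi x w⟩
  have hLi : Inv φ (normalizer (T : Set W)) := by
    intro x g hg
    rw [mem_normalizer_iff] at hg ⊢
    intro t
    have e1 : φ x g * t * (φ x g)⁻¹ = φ x (g * φ x⁻¹ t * g⁻¹) := by
      rw [map_mul (φ x), map_mul (φ x), map_inv (φ x), phi_apply_inv]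
    rw [e1, hmem, ← hg, hmem]
  have hcopL : (Nat.card ↥(normalizer (T : Set W))).Coprime p :=
    Nat.Coprime.coprime_dvd_left (Subgroup.card_subgroup_dvd_card _) hcop
  obtain ⟨R, hR⟩ := Cfsg.Agent.Lib.H11GhSylEx.exists_inv_sylow p q hP
    (res φ (normalizer (T : Set W)) hLi) hcopL
  have hR'q : IsPGroup q ↥((R : Subgroup ↥(normalizer (T : Set W))).map (normalizer (T : Set W)).subtype) :=
    R.2.map _
  have hR'i : Inv φ ((R : Subgroup ↥(normalizer (T : Set W))).map (normalizer (T : Set W)).subtype) := by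
    rintro x _ ⟨r, hr, rfl⟩
    exact ⟨res φ (normalizer (T : Set W)) hLi x r, hR x r hr, rfl⟩
  have hTn : (T.subgroupOf (normalizer (T : Set W))).Normal := Subgroup.normal_in_normalizer
  have hTR : T.subgroupOf (normalizer (T : Set W)) ≤ (R : Subgroup ↥(normalizer (T : Set W))) :=
    IsPGroup.le_sylow_of_normal (N := T.subgroupOf (normalizer (T : Set W))) hT.comap_subtype R
  have hTR' : T ≤ (R : Subgroup ↥(normalizer (T : Set W))).map (normalizer (T : Set W)).subtype := by
    intro t ht
    exact ⟨⟨t, le_normalizer ht⟩, hTR ht, rfl⟩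
  have hcardR' : Nat.card ↥((R : Subgroup ↥(normalizer (T : Set W))).map (normalizer (T : Set W)).subtype)
      = Nat.card (R : Subgroup ↥(normalizer (T : Set W))) :=
    Subgroup.card_map_of_injective (normalizer (T : Set W)).subtype_injective
  -- the bigger `q`-subgroup of the normalizer
  have hbig : Nat.card ↥((Q : Subgroup W) ⊓ normalizer (T : Set W))
      ≤ Nat.card (R : Subgroup ↥(normalizer (T : Set W))) := by
    have hq1 : IsPGroup q ↥(((Q : Subgroup W) ⊓ normalizer (T : Set W)).subgroupOf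
        (normalizer (T : Set W))) := (Q.2.to_le inf_le_left).comap_subtype
    obtain ⟨R₀, hR₀⟩ := hq1.exists_le_sylow
    have h1 : Nat.card ↥(((Q : Subgroup W) ⊓ normalizer (T : Set W)).subgroupOf
        (normalizer (T : Set W))) = Nat.card ↥((Q : Subgroup W) ⊓ normalizer (T : Set W)) :=
      Nat.card_congr (Subgroup.subgroupOfEquivOfLe inf_le_right).toEquiv
    rw [← h1, Sylow.card_eq_multiplicity R, ← Sylow.card_eq_multiplicity R₀]
    exact Subgroup.card_le_of_le hR₀
  have hTlt : Nat.card T < Nat.card ↥((Q : Subgroup W) ⊓ normalizer (T : Set W)) := by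
    by_contra hcon
    exact absurd (Subgroup.eq_of_le_of_card_ge hgrow.le (not_lt.1 hcon)) hgrow.ne
  have hle : Nat.card ↥((R : Subgroup ↥(normalizer (T : Set W))).map (normalizer (T : Set W)).subtype)
      ≤ Nat.card W := Subgroup.card_le_card_group _
  obtain ⟨S, hS1, hS2⟩ := ih _ (by rw [← hn, hcardR'] at *; omega) _ hR'q hR'i rfl
  exact ⟨S, hS1, hTR'.trans hS2⟩

end Cfsg.Agent.Lib.H11GhSylMax
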