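import Cfsg.Agent.Lib.H11GhSylFix

/-! # Project 4091 (Gheri), piece SylProd (50m) -/

set_option autoImplicit false

namespace Cfsg.Agent.Lib.H11GhSylProd

open Subgroup Cfsg.Agent.Lib.H11GhDefs

/-- **`|C_W(H)| = ∏_q |C_{S_q}(H)|`.**
SKETCH.  For `q ∈ (Nat.card W).primeFactors` (`Nat.prime_of_mem_primeFactors`, `haveI := Fact.mk`), `S q` is a Sylow subgroup: `Sylow.ofCard (S q) (hS q hq).2`; `H11GhSylFix.card_inf` gives `Nat.card (Fx φ H ⊓ S q) = q ^ (fx φ H).factorization q`.
`fx φ H ≠ 0` and `fx φ H ∣ Nat.card W` (`Subgroup.card_subgroup_dvd_card`), so `(fx φ H).primeFactors ⊆ (Nat.card W).primeFactors` (`Nat.primeFactors_mono`).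
`Nat.factorization_prod_pow_eq_self`: `fx φ H = (fx φ H).factorization.prod (· ^ ·) = ∏ q ∈ (fx φ H).primeFactors, q ^ _`; extend the index set with `Finset.prod_subset` (for `q ∉ primeFactors`, the exponent is `0`: `Finsupp.notMem_support_iff`, `Nat.support_factorization`). -/
theorem fx_eq_prod {P W : Type*} [Group P] [Group W] [Finite W] (p : ℕ) [Fact p.Prime]
    (hP : IsPGroup p P) (φ : P →* MulAut W) (hcop : (Nat.card W).Coprime p) (S : ℕ → Subgroup W)
    (hS : ∀ q ∈ (Nat.card W).primeFactors,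
      Inv φ (S q) ∧ Nat.card (S q) = q ^ (Nat.card W).factorization q) (H : Subgroup P) :
    fx φ H = ∏ q ∈ (Nat.card W).primeFactors, Nat.card ↥(Fx φ H ⊓ S q) := by
  have hne : fx φ H ≠ 0 := by
    unfold fx
    exact Nat.card_pos.ne'
  have hdvd : fx φ H ∣ Nat.card W := Subgroup.card_subgroup_dvd_card _
  have hWne : Nat.card W ≠ 0 := Nat.card_pos.ne'
  have hsub : (fx φ H).primeFactors ⊆ (Nat.card W).primeFactors := Nat.primeFactors_mono hdvd hWne
  have h1 : ∀ q ∈ (Nat.card W).primeFactors,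
      Nat.card ↥(Fx φ H ⊓ S q) = q ^ (fx φ H).factorization q := by
    intro q hq
    haveI : Fact q.Prime := ⟨Nat.prime_of_mem_primeFactors hq⟩
    exact Cfsg.Agent.Lib.H11GhSylFix.card_inf p q hP φ hcop H (Sylow.ofCard (S q) (hS q hq).2)
      (hS q hq).1
  rw [Finset.prod_congr rfl h1]
  conv_lhs => rw [← Nat.factorization_prod_pow_eq_self hne]
  rw [Finsupp.prod, Nat.support_factorization]
  apply Finset.prod_subset hsub
  intro q _ hq
  have h0 : (fx φ H).factorization q = 0 := by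
    apply Finsupp.notMem_support_iff.1
    rwa [Nat.support_factorization]
  rw [h0, pow_zero]

end Cfsg.Agent.Lib.H11GhSylProd
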