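import Mathlib
import Cfsg.Agent.Lib.H12RSLDefs

/-! piece `SLDual` of project 12, wave 2 (rows S5043, S5058: transvection groups of `SL_N(k)`).
Vectors and covectors are functions `Fin N → k`, pairing `φ ⬝ᵥ x`; `tvS p φ c` = `x ↦ x + c φ(x) p`;
API in `H12RSLDefs`: `tvS_coe`, `tvS_mulVec`, `tvS_vecMul`, `TSL`, `Inc`, `E01`, `SigSL`, `DSL`. -/

set_option autoImplicit false

namespace Cfsg.Agent.Lib.H12RSLDual

open Matrix Cfsg Cfsg.Agent.Lib.H12RSLDefs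

variable {k : Type*} [Field k] {N : ℕ}

/-! PURE linear algebra in `Fin N → k` (no groups). -/

theorem exists_dot_eq_one {u : Fin N → k} (hu : u ≠ 0) : ∃ χ : Fin N → k, χ ⬝ᵥ u = 1 := by
  obtain ⟨i, hi⟩ := Function.ne_iff.1 hu
  refine ⟨Pi.single i (u i)⁻¹, ?_⟩
  rw [single_dotProduct]
  exact inv_mul_cancel₀ hi

/-- `u, w` linearly independent: some 2×2 minor `u i * w j - u j * w i` is non-zero -/
theorem exists_minor {u w : Fin N → k} (hu : u ≠ 0) (h : ∀ a : k, w ≠ a • u) :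
    ∃ i j : Fin N, u i * w j - u j * w i ≠ 0 := by
  by_contra hcon
  push Not at hcon
  obtain ⟨i, hi⟩ := Function.ne_iff.1 hu
  have hi' : u i ≠ 0 := hi
  apply h (w i / u i)
  ext j
  have h1 := hcon i j
  rw [Pi.smul_apply, smul_eq_mul]
  field_simp
  linear_combination h1

/-- Cramer on the coordinates `i, j` of `exists_minor` -/
theorem exists_dot_pair {u w : Fin N → k} (hu : u ≠ 0) (h : ∀ a : k, w ≠ a • u) (a b : k) :
    ∃ χ : Fin N → k, χ ⬝ᵥ u = a ∧ χ ⬝ᵥ w = b := by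
  obtain ⟨i, j, hD⟩ := exists_minor hu h
  obtain ⟨D, hDdef⟩ : ∃ D, D = u i * w j - u j * w i := ⟨_, rfl⟩
  rw [← hDdef] at hD
  refine ⟨Pi.single i ((a * w j - b * u j) / D) + Pi.single j ((b * u i - a * w i) / D), ?_, ?_⟩
  · rw [add_dotProduct, single_dotProduct, single_dotProduct]
    field_simp
    rw [hDdef]
    ring
  · rw [add_dotProduct, single_dotProduct, single_dotProduct]
    field_simp
    rw [hDdef]
    ring

/-- rank-nullity for `ψ ↦ (ψ·u, ψ·w)` -/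
theorem exists_perp_two (hN : 3 ≤ N) (u w : Fin N → k) : ∃ ψ : Fin N → k, ψ ≠ 0 ∧ ψ ⬝ᵥ u = 0 ∧ ψ ⬝ᵥ w = 0 := by
  let f : (Fin N → k) →ₗ[k] (Fin 2 → k) := Matrix.mulVecLin (Matrix.of ![u, w])
  have hker : LinearMap.ker f ≠ ⊥ := by
    apply LinearMap.ker_ne_bot_of_finrank_lt
    rw [Module.finrank_fin_fun, Module.finrank_fin_fun]
    omega
  obtain ⟨ψ, hψ, hψ0⟩ := Submodule.exists_mem_ne_zero_of_ne_bot hker
  rw [LinearMap.mem_ker] at hψ
  refine ⟨ψ, hψ0, ?_, ?_⟩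
  · have := congrFun hψ 0
    rw [dotProduct_comm]
    simpa [f, Matrix.mulVec] using this
  · have := congrFun hψ 1
    rw [dotProduct_comm]
    simpa [f, Matrix.mulVec] using this

theorem exists_perp_indep (hN : 3 ≤ N) {p : Fin N → k} (hp : p ≠ 0) (φ : Fin N → k) :
    ∃ w : Fin N → k, w ≠ 0 ∧ φ ⬝ᵥ w = 0 ∧ ∀ a : k, w ≠ a • p := by
  obtain ⟨χ, hχ⟩ := exists_dot_eq_one hp
  obtain ⟨ψ, hψ0, h1, h2⟩ := exists_perp_two hN φ χ
  refine ⟨ψ, hψ0, by rw [dotProduct_comm]; exact h1, ?_⟩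
  intro a ha
  rw [ha, smul_dotProduct, dotProduct_comm, hχ, smul_eq_mul, mul_one] at h2
  rw [h2, zero_smul] at ha
  exact hψ0 ha

theorem exists_not_perp_two {u w : Fin N → k} (hu : u ≠ 0) (hw : w ≠ 0) :
    ∃ χ : Fin N → k, χ ⬝ᵥ u ≠ 0 ∧ χ ⬝ᵥ w ≠ 0 := by
  by_cases h : ∀ a : k, w ≠ a • u
  · obtain ⟨χ, h1, h2⟩ := exists_dot_pair hu h 1 1
    exact ⟨χ, by rw [h1]; exact one_ne_zero, by rw [h2]; exact one_ne_zero⟩
  · push Not at h
    obtain ⟨a, ha⟩ := h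
    obtain ⟨χ, hχ⟩ := exists_dot_eq_one hu
    refine ⟨χ, by rw [hχ]; exact one_ne_zero, ?_⟩
    rw [ha, dotProduct_smul, hχ, smul_eq_mul, mul_one]
    rintro rfl
    rw [zero_smul] at ha
    exact hw ha

end Cfsg.Agent.Lib.H12RSLDual
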