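import Mathlib
import Cfsg.Agent.Lib.H12RSLDefs

/-! piece `SLMem` of project 12, wave 2 (rows S5043, S5058: transvection groups of `SL_N(k)`).
Vectors and covectors are functions `Fin N → k`, pairing `φ ⬝ᵥ x`; `tvS p φ c` = `x ↦ x + c φ(x) p`;
API in `H12RSLDefs`: `tvS_coe`, `tvS_mulVec`, `tvS_vecMul`, `TSL`, `Inc`, `E01`, `SigSL`, `DSL`. -/

set_option autoImplicit false

namespace Cfsg.Agent.Lib.H12RSLMem

open Matrix Cfsg Cfsg.Agent.Lib.H12RSLDefs

variable {k : Type*} [Field k] {N : ℕ}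

theorem ext_mulVec {g h : Matrix.SpecialLinearGroup (Fin N) k} (H : ∀ v : Fin N → k, (g : Matrix (Fin N) (Fin N) k) *ᵥ v = (h : Matrix (Fin N) (Fin N) k) *ᵥ v) : g = h := by
  apply Subtype.ext
  apply Matrix.ext_of_mulVec_single
  intro i
  exact H _

theorem coe_mul_mulVec (g h : Matrix.SpecialLinearGroup (Fin N) k) (x : Fin N → k) :
    ((g * h : Matrix.SpecialLinearGroup (Fin N) k) : Matrix (Fin N) (Fin N) k) *ᵥ x = (g : Matrix (Fin N) (Fin N) k) *ᵥ ((h : Matrix (Fin N) (Fin N) k) *ᵥ x) := by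
  rw [Matrix.SpecialLinearGroup.coe_mul, Matrix.mulVec_mulVec]

theorem coe_inv_mulVec (g : Matrix.SpecialLinearGroup (Fin N) k) (x : Fin N → k) : (g : Matrix (Fin N) (Fin N) k) *ᵥ (((g⁻¹ : Matrix.SpecialLinearGroup (Fin N) k) : Matrix (Fin N) (Fin N) k) *ᵥ x) = x := by
  rw [← coe_mul_mulVec, mul_inv_cancel, Matrix.SpecialLinearGroup.coe_one, Matrix.one_mulVec]

theorem coe_inv_mulVec' (g : Matrix.SpecialLinearGroup (Fin N) k) (x : Fin N → k) : ((g⁻¹ : Matrix.SpecialLinearGroup (Fin N) k) : Matrix (Fin N) (Fin N) k) *ᵥ ((g : Matrix (Fin N) (Fin N) k) *ᵥ x) = x := by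
  rw [← coe_mul_mulVec, inv_mul_cancel, Matrix.SpecialLinearGroup.coe_one, Matrix.one_mulVec]

theorem tvS_mul {p φ : Fin N → k} (h : φ ⬝ᵥ p = 0) (c d : k) : tvS p φ c * tvS p φ d = tvS p φ (c + d) := by
  apply ext_mulVec
  intro v
  rw [coe_mul_mulVec, tvS_mulVec h, tvS_mulVec h, tvS_mulVec h, dotProduct_add, dotProduct_smul, h]
  simp only [smul_eq_mul, mul_zero, add_zero]
  rw [add_assoc, ← add_smul]
  congr 2
  ring

theorem tvS_zero (p φ : Fin N → k) : tvS p φ (0 : k) = 1 := by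
  by_cases h : φ ⬝ᵥ p = 0
  · apply Subtype.ext
    rw [tvS_coe h]
    simp
  · exact dif_neg h

theorem tvS_inv {p φ : Fin N → k} (h : φ ⬝ᵥ p = 0) (c : k) : (tvS p φ c)⁻¹ = tvS p φ (-c) := by
  rw [inv_eq_iff_mul_eq_one, tvS_mul h, add_neg_cancel, tvS_zero]

theorem tvS_eq_one_iff {p φ : Fin N → k} (h : Inc p φ) {c : k} : tvS p φ c = 1 ↔ c = 0 := by
  constructor
  · intro hc
    obtain ⟨hp, hφ, h0⟩ := h
    by_contra hc0
    apply hφ
    funext i
    have h1 := tvS_mulVec h0 c (Pi.single i 1)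
    rw [hc, Matrix.SpecialLinearGroup.coe_one, Matrix.one_mulVec] at h1
    have h2 : (c * (φ ⬝ᵥ Pi.single i 1)) • p = 0 := by
      have := h1.symm
      rwa [add_eq_left] at this
    rw [smul_eq_zero] at h2
    rcases h2 with h2 | h2
    · rw [dotProduct_single, mul_one] at h2
      rcases mul_eq_zero.mp h2 with h3 | h3
      · exact absurd h3 hc0
      · exact h3
    · exact absurd h2 hp
  · rintro rfl
    exact tvS_zero p φ

theorem tvS_smul_left {p φ : Fin N → k} (h : φ ⬝ᵥ p = 0) (a c : k) : tvS (a • p) φ c = tvS p φ (a * c) := by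
  have h' : φ ⬝ᵥ (a • p) = 0 := by rw [dotProduct_smul, h, smul_zero]
  apply ext_mulVec
  intro v
  rw [tvS_mulVec h, tvS_mulVec h', smul_smul]
  congr 2
  ring

theorem tvS_smul_right {p φ : Fin N → k} (h : φ ⬝ᵥ p = 0) (a c : k) : tvS p (a • φ) c = tvS p φ (a * c) := by
  have h' : (a • φ) ⬝ᵥ p = 0 := by rw [smul_dotProduct, h, smul_zero]
  apply ext_mulVec
  intro v
  rw [tvS_mulVec h, tvS_mulVec h', smul_dotProduct, smul_eq_mul]
  congr 2
  ring

/-- the generating set of `TSL p φ` is already a subgroup -/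
theorem mem_TSL_iff {p φ : Fin N → k} (h : φ ⬝ᵥ p = 0) (g : Matrix.SpecialLinearGroup (Fin N) k) : g ∈ TSL p φ ↔ ∃ c : k, g = tvS p φ c := by
  constructor
  · intro hg
    unfold TSL at hg
    induction hg using Subgroup.closure_induction with
    | mem x hx =>
      obtain ⟨c, hc⟩ := hx
      exact ⟨c, Subtype.ext (by rw [hc, tvS_coe h])⟩
    | one => exact ⟨0, (tvS_zero p φ).symm⟩
    | mul x y _ _ hx hy =>
      obtain ⟨c, rfl⟩ := hx
      obtain ⟨d, rfl⟩ := hy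
      exact ⟨c + d, tvS_mul h c d⟩
    | inv x _ hx =>
      obtain ⟨c, rfl⟩ := hx
      exact ⟨-c, tvS_inv h c⟩
  · rintro ⟨c, rfl⟩
    exact Subgroup.subset_closure ⟨c, tvS_coe h c⟩

end Cfsg.Agent.Lib.H12RSLMem
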