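import Mathlib
import Cfsg.Agent.Lib.H12RSLMem
import Cfsg.Agent.Lib.H12RSLDual

/-! piece `SLMoveA` of project 12, wave 2 (rows S5043, S5058: transvection groups of `SL_N(k)`).
Vectors and covectors are functions `Fin N → k`, pairing `φ ⬝ᵥ x`; `tvS p φ c` = `x ↦ x + c φ(x) p`;
API in `H12RSLDefs`: `tvS_coe`, `tvS_mulVec`, `tvS_vecMul`, `TSL`, `Inc`, `E01`, `SigSL`, `DSL`. -/

set_option autoImplicit false

namespace Cfsg.Agent.Lib.H12RSLMoveA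

open Matrix Cfsg Cfsg.Agent.Lib.H12RSLDefs
open Cfsg.Agent.Lib.H12RSLMem Cfsg.Agent.Lib.H12RSLDual

variable {k : Type*} [Field k] {N : ℕ}

theorem move_vec_indep {p r φ : Fin N → k} (hp : Inc p φ) (hr : Inc r φ) (hi : ∀ a : k, r ≠ a • p) :
    ∃ g : Matrix.SpecialLinearGroup (Fin N) k, (g : Matrix (Fin N) (Fin N) k) *ᵥ p = r ∧ φ ᵥ* ((g⁻¹ : Matrix.SpecialLinearGroup (Fin N) k) : Matrix (Fin N) (Fin N) k) = φ := by
  obtain ⟨χ, h1, h2⟩ := exists_dot_pair hp.1 hi 1 1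
  have h0 : χ ⬝ᵥ (r - p) = 0 := by rw [dotProduct_sub, h1, h2, sub_self]
  refine ⟨tvS (r - p) χ 1, ?_, ?_⟩
  · rw [tvS_mulVec h0, h1, mul_one, one_smul]
    abel
  · rw [tvS_inv h0, tvS_vecMul h0, dotProduct_sub, hp.2.2, hr.2.2]
    simp

theorem move_vec (hN : 3 ≤ N) {p r φ : Fin N → k} (hp : Inc p φ) (hr : Inc r φ) :
    ∃ g : Matrix.SpecialLinearGroup (Fin N) k, (g : Matrix (Fin N) (Fin N) k) *ᵥ p = r ∧ φ ᵥ* ((g⁻¹ : Matrix.SpecialLinearGroup (Fin N) k) : Matrix (Fin N) (Fin N) k) = φ := by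
  by_cases hi : ∀ a : k, r ≠ a • p
  · exact move_vec_indep hp hr hi
  · push Not at hi
    obtain ⟨a, ha⟩ := hi
    have ha0 : a ≠ 0 := by
      rintro rfl
      rw [zero_smul] at ha
      exact hr.1 ha
    obtain ⟨w, hw0, hw1, hw2⟩ := exists_perp_indep hN hp.1 φ
    have hw : Inc w φ := ⟨hw0, hp.2.1, hw1⟩
    obtain ⟨g1, hg1, hg1'⟩ := move_vec_indep hp hw hw2
    have hi2 : ∀ b : k, r ≠ b • w := by
      intro b hb
      have hb0 : b ≠ 0 := by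
        rintro rfl
        rw [zero_smul] at hb
        exact hr.1 hb
      apply hw2 (b⁻¹ * a)
      rw [mul_smul, ← ha, hb, smul_smul, inv_mul_cancel₀ hb0, one_smul]
    obtain ⟨g2, hg2, hg2'⟩ := move_vec_indep hw hr hi2
    refine ⟨g2 * g1, ?_, ?_⟩
    · rw [coe_mul_mulVec, hg1, hg2]
    · rw [_root_.mul_inv_rev, Matrix.SpecialLinearGroup.coe_mul, ← vecMul_vecMul, hg1', hg2']

end Cfsg.Agent.Lib.H12RSLMoveA
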