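import Mathlib
import Cfsg.Agent.Lib.H12RSLMoveA
import Cfsg.Agent.Lib.H12RSLMoveB

/-! piece `SLMove` of project 12, wave 2 (rows S5043, S5058: transvection groups of `SL_N(k)`).
Vectors and covectors are functions `Fin N → k`, pairing `φ ⬝ᵥ x`; `tvS p φ c` = `x ↦ x + c φ(x) p`;
API in `H12RSLDefs`: `tvS_coe`, `tvS_mulVec`, `tvS_vecMul`, `TSL`, `Inc`, `E01`, `SigSL`, `DSL`. -/

set_option autoImplicit false

namespace Cfsg.Agent.Lib.H12RSLMove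

open Matrix Cfsg Cfsg.Agent.Lib.H12RSLDefs
open Cfsg.Agent.Lib.H12RSLMem Cfsg.Agent.Lib.H12RSLDual Cfsg.Agent.Lib.H12RSLMoveA Cfsg.Agent.Lib.H12RSLMoveB

variable {k : Type*} [Field k] {N : ℕ}

/-- `SL_N(k)`, `N ≥ 3`, is transitive on incident (vector, covector) pairs -/
theorem exists_move (hN : 3 ≤ N) {p φ r ψ : Fin N → k} (h1 : Inc p φ) (h2 : Inc r ψ) :
    ∃ g : Matrix.SpecialLinearGroup (Fin N) k, (g : Matrix (Fin N) (Fin N) k) *ᵥ p = r ∧ φ ᵥ* ((g⁻¹ : Matrix.SpecialLinearGroup (Fin N) k) : Matrix (Fin N) (Fin N) k) = ψ := by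
  obtain ⟨ω, hω0, hω1, hω2⟩ := exists_perp_two hN p r
  obtain ⟨g1, a1, b1⟩ := move_covec hN h1 (⟨h1.1, hω0, hω1⟩ : Inc p ω)
  obtain ⟨g2, a2, b2⟩ := move_vec hN (⟨h1.1, hω0, hω1⟩ : Inc p ω) (⟨h2.1, hω0, hω2⟩ : Inc r ω)
  obtain ⟨g3, a3, b3⟩ := move_covec hN (⟨h2.1, hω0, hω2⟩ : Inc r ω) h2
  refine ⟨g3 * (g2 * g1), ?_, ?_⟩
  · rw [coe_mul_mulVec, coe_mul_mulVec, a1, a2, a3]
  · rw [_root_.mul_inv_rev, _root_.mul_inv_rev, Matrix.SpecialLinearGroup.coe_mul, Matrix.SpecialLinearGroup.coe_mul,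
      ← vecMul_vecMul, ← vecMul_vecMul, b1, b2, b3]

end Cfsg.Agent.Lib.H12RSLMove
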