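import Mathlib
import Cfsg.Agent.Lib.Helper86Sub
import Cfsg.Agent.Lib.Helper89Fusion2
import Cfsg.Agent.Lib.Helper88Normal
import Cfsg.Agent.Lib.Helper87Invariant

set_option autoImplicit false

/-! Vocabulary of project 5243 (row S5243).  `F` saturated over `S`, `E` invariant saturated subsystem
over `T`, and `c b` = the value of the character `χ : Aut_F(T) → Δ` on the automorphism of `T` induced by the
total function `b`. -/

namespace Cfsg.Agent.Lib.H12YDefs

open Cfsg Cfsg.FusionSystem Cfsg.Agent.Lib.Helper87Fusion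

variable {Ω : Type*} [Group Ω] {S T : Subgroup Ω} {Δ : Type*} [Group Δ]

/-- The standing hypotheses. -/
structure Ctx (p : ℕ) (F : FusionSystem S) (E : FusionSystem T) (c : (Ω → Ω) → Δ) : Prop where
  hS : IsPGroup p S
  hF : F.IsSaturated p
  hE : E.IsSaturated p
  hinv : E.IsInvariantIn F
  c_congr : ∀ a b : Ω → Ω, (∀ x ∈ T, a x = b x) → c a = c b
  c_mul : ∀ a b : Ω → Ω, IsMap F T a → IsMap F T b → c (fun x => a (b x)) = c a * c b
  c_E : ∀ a : Ω → Ω, IsMap E T a → c a = 1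
  c_surj : ∀ d : Δ, ∃ a : Ω → Ω, IsMap F T a ∧ c a = d
  c_pow : ∀ (d : Δ) (k : ℕ), d ^ p ^ k = 1 → d = 1

namespace Ctx

variable {p : ℕ} {F : FusionSystem S} {E : FusionSystem T} {c : (Ω → Ω) → Δ}

theorem hsub (h : Ctx p F E c) : E.IsSubsystemOf F := h.hinv.1
theorem hT (h : Ctx p F E c) : F.StronglyClosed T := h.hinv.2.1
theorem hTS (h : Ctx p F E c) : T ≤ S := h.hinv.2.1.1
theorem hTp (h : Ctx p F E c) : IsPGroup p T := h.hS.to_le h.hTS
theorem finT [Finite S] (h : Ctx p F E c) : Finite T :=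
  Cfsg.Agent.Lib.Helper86Fusion.finite_of_le h.hTS

end Ctx

/-- `Th R f d`: on `R ≤ T` the map `f` is `a ∘ f₀` with `a ∈ Aut_F(T)`, `χ(a) = d`, `f₀` a map of `E`. -/
def Th (F : FusionSystem S) (E : FusionSystem T) (c : (Ω → Ω) → Δ) (R : Subgroup Ω) (f : Ω → Ω)
    (d : Δ) : Prop :=
  ∃ a f₀ : Ω → Ω, IsMap F T a ∧ IsMap E R f₀ ∧ c a = d ∧ ∀ x ∈ R, f x = a (f₀ x)

/-- the kernel predicate on maps with source `P ≤ S`. -/
def K (F : FusionSystem S) (E : FusionSystem T) (c : (Ω → Ω) → Δ) (P : Subgroup Ω) (f : Ω → Ω) :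
    Prop := Th F E c (P ⊓ T) f 1

/-- the family of subgroups `P ≤ S` with `P ∩ T` centric in `E`. -/
def H (S : Subgroup Ω) (E : FusionSystem T) : Set (Subgroup Ω) :=
  {P | P ≤ S ∧ E.IsCentric (P ⊓ T)}

/-- statement (W) for the `E`-centric subgroups of order at least `n`. -/
def WP (F : FusionSystem S) (E : FusionSystem T) (c : (Ω → Ω) → Δ) (n : ℕ) : Prop :=
  ∀ R : Subgroup Ω, E.IsCentric R → n ≤ Nat.card R → ∀ b : Ω → Ω, IsMap F T b → IsMap E R b → c b = 1

end Cfsg.Agent.Lib.H12YDefs
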