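import Mathlib
import Cfsg.Agent.Lib.H12YDefs

set_option autoImplicit false

namespace Cfsg.Agent.Lib.H12YInf

open Cfsg Cfsg.FusionSystem Cfsg.Agent.Lib.Helper87Fusion Cfsg.Agent.Lib.H12YDefs

variable {Ω : Type*} [Group Ω] {S T : Subgroup Ω} {Δ : Type*} [Group Δ]
  {p : ℕ} {F : FusionSystem S} {E : FusionSystem T} {c : (Ω → Ω) → Δ}

/-- `f x ∈ T ↔ x ∈ T` for `x ∈ P`: `Cfsg.Agent.Lib.Helper87Fusion3.StronglyClosed_mem_iff hT hf hx`. -/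
theorem image_inf (hT : F.StronglyClosed T) {P Q : Subgroup Ω} {f : Ω → Ω} (hf : IsMap F P f)
    (hQ : f '' (P : Set Ω) = (Q : Set Ω)) :
    f '' ((P ⊓ T : Subgroup Ω) : Set Ω) = ((Q ⊓ T : Subgroup Ω) : Set Ω) := by
  ext y
  constructor
  · rintro ⟨x, hx, rfl⟩
    have hx' : x ∈ P ⊓ T := hx
    rw [Subgroup.mem_inf] at hx'
    show f x ∈ Q ⊓ T
    rw [Subgroup.mem_inf]
    exact ⟨IsMap.mem_image hQ hx'.1,
      (Cfsg.Agent.Lib.Helper87Fusion3.StronglyClosed_mem_iff hT hf hx'.1).2 hx'.2⟩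
  · intro hy
    have hy' : y ∈ Q ⊓ T := hy
    rw [Subgroup.mem_inf] at hy'
    obtain ⟨x, hx, rfl⟩ := IsMap.exists_of_mem_image hQ hy'.1
    refine ⟨x, ?_, rfl⟩
    show x ∈ P ⊓ T
    rw [Subgroup.mem_inf]
    exact ⟨hx, (Cfsg.Agent.Lib.Helper87Fusion3.StronglyClosed_mem_iff hT hf hx).1 hy'.2⟩

/-- an `E`-conjugate `T'` of `T` lies in `T` and has the same order (`isConj_card_eq`, `isConj_le_right`), so `T' = T`
(`Subgroup.eq_of_le_of_card_ge`); `centralizerIn T T ≤ T` is `inf_le_left`. -/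
theorem centric_top [Finite T] : E.IsCentric T := by
  refine ⟨le_rfl, fun Q hQ => ?_⟩
  have h1 : Q ≤ T := isConj_le_right hQ
  have h2 : Nat.card T = Nat.card Q := (isConj_card_eq hQ).symm
  have h3 : Q = T := Subgroup.eq_of_le_of_card_ge h1 h2.le
  rw [h3]
  exact centralizerIn_le T T

theorem top_mem_H [Finite T] (hTS : T ≤ S) : S ∈ H S E := by
  refine ⟨le_rfl, ?_⟩
  rw [inf_eq_right.2 hTS]
  exact centric_top

/-- `Helper87Fusion2.isCentric_of_le` with `P ⊓ T ≤ Q ⊓ T ≤ T`. -/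
theorem over_mem_H {P Q : Subgroup Ω} (hP : P ∈ H S E) (hPQ : P ≤ Q) (hQ : Q ≤ S) : Q ∈ H S E :=
  ⟨hQ, Cfsg.Agent.Lib.Helper87Fusion2.isCentric_of_le hP.2 (inf_le_inf_right T hPQ) inf_le_right⟩

end Cfsg.Agent.Lib.H12YInf
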