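import Mathlib
import Cfsg.Agent.Lib.H12YDefs
import Cfsg.Agent.Lib.H12YTh
import Cfsg.Agent.Lib.Helper87Split
import Cfsg.Agent.Lib.Helper87Fusion2

set_option autoImplicit false

namespace Cfsg.Agent.Lib.H12YUniq

open Cfsg Cfsg.FusionSystem Cfsg.Agent.Lib.Helper87Fusion Cfsg.Agent.Lib.H12YDefs

variable {Ω : Type*} [Group Ω] {S T : Subgroup Ω} {Δ : Type*} [Group Δ]
  {p : ℕ} {F : FusionSystem S} {E : FusionSystem T} {c : (Ω → Ω) → Δ}

/-- UNIQUENESS of the value `d` on `E`-centric subgroups, from (W).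
`f = a f₀ = a' f₀'` on `R`.  `R₀ := f₀ '' R` (`IsMap.exists_image`) is `E`-conjugate to `R`, so `E`-centric
(`Helper87Fusion2.isCentric_of_isConj`, `isConj_iff`) of the same order (`IsMap.card_image`).
Let `ai'` be the inverse of `a'` on `T` (`IsMap.inv`, `a' '' T = T` by
`Helper87Split.image_of_stronglyClosed h.hT _ le_rfl`), `b := ai' ∘ a`, an `F`-map on `T`.  For `y = f₀ x ∈ R₀`:
`b y = ai' (a (f₀ x)) = ai' (a' (f₀' x)) = f₀' x = f₀' (f₀i y)` (`f₀i` = inverse of `f₀` on `R₀`), so `b` is an `E`-map on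
`R₀` (`IsMap.comp`, `IsMap.congr`).  `hW` gives `c b = 1`; `c b = c ai' * c a = (c a')⁻¹ * c a` (`h.c_mul`, `H12YTh.c_inv`). -/
theorem uniq [Finite S] (h : Ctx p F E c) {n : ℕ} (hW : WP F E c n) {R : Subgroup Ω}
    (hR : E.IsCentric R) (hn : n ≤ Nat.card R) {f : Ω → Ω} {d d' : Δ}
    (h1 : Th F E c R f d) (h2 : Th F E c R f d') : d = d' := by
  obtain ⟨a, f₀, ha, hf₀, rfl, hf⟩ := h1
  obtain ⟨a', f₀', ha', hf₀', rfl, hf'⟩ := h2
  obtain ⟨R₀, hR₀⟩ := hf₀.exists_image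
  have hconj : E.IsConj R R₀ := isConj_iff.2 ⟨f₀, hf₀, hR₀⟩
  have hR₀c : E.IsCentric R₀ := Cfsg.Agent.Lib.Helper87Fusion2.isCentric_of_isConj hR hconj
  have hcard : Nat.card R₀ = Nat.card R := hf₀.card_image hR₀
  have hT' : a' '' (T : Set Ω) = (T : Set Ω) :=
    Cfsg.Agent.Lib.Helper87Split.image_of_stronglyClosed h.hT ha' le_rfl
  have hTa : a '' (T : Set Ω) = (T : Set Ω) :=
    Cfsg.Agent.Lib.Helper87Split.image_of_stronglyClosed h.hT ha le_rfl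
  obtain ⟨ai', hai', hl, hr, him⟩ := ha'.inv hT'
  obtain ⟨f₀i, hf₀i, hl0, hr0, him0⟩ := hf₀.inv hR₀
  have hb : IsMap F T (fun x => ai' (a x)) :=
    ha.comp hai' (fun x hx => IsMap.mem_image hTa hx)
  have hbE : IsMap E R₀ (fun x => ai' (a x)) := by
    have h3 : IsMap E R₀ (fun y => f₀' (f₀i y)) :=
      hf₀i.comp hf₀' (fun y hy => IsMap.mem_image him0 hy)
    refine h3.congr ?_
    intro y hy
    obtain ⟨x, hx, rfl⟩ := IsMap.exists_of_mem_image hR₀ hy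
    show f₀' (f₀i (f₀ x)) = ai' (a (f₀ x))
    rw [hl0 x hx, ← hf x hx, hf' x hx, hl _ (hf₀'.mem hx)]
  have h4 := hW R₀ hR₀c (by rw [hcard]; exact hn) _ hb hbE
  rw [h.c_mul ai' a hai' ha, Cfsg.Agent.Lib.H12YTh.c_inv h ha' hai' hl, inv_mul_eq_one] at h4
  exact h4.symm

end Cfsg.Agent.Lib.H12YUniq
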