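import Mathlib
import Cfsg.Agent.Lib.H12YDefs
import Cfsg.Agent.Lib.H12YTh
import Cfsg.Agent.Lib.H12YUniq

set_option autoImplicit false

namespace Cfsg.Agent.Lib.H12YKExt

open Cfsg Cfsg.FusionSystem Cfsg.Agent.Lib.Helper87Fusion Cfsg.Agent.Lib.H12YDefs

variable {Ω : Type*} [Group Ω] {S T : Subgroup Ω} {Δ : Type*} [Group Δ]
  {p : ℕ} {F : FusionSystem S} {E : FusionSystem T} {c : (Ω → Ω) → Δ}

/-- (k1).  `th_exists h inf_le_right (hf.restrict inf_le_left)` : `Th (P' ⊓ T) f d`; restrict to `P ⊓ T` (`th_restrict`,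
`inf_le_inf_right`); `H12YUniq.uniq h hW hP.2 (Nat.zero_le _)` against `hK` gives `d = 1`. -/
theorem k_ext [Finite S] (h : Ctx p F E c) (hW : WP F E c 0) {P P' : Subgroup Ω} {f : Ω → Ω}
    (hP : P ∈ H S E) (hPP' : P ≤ P') (hf : IsMap F P' f) (hK : K F E c P f) : K F E c P' f := by
  obtain ⟨d, hd⟩ := Cfsg.Agent.Lib.H12YTh.th_exists h (R := P' ⊓ T) inf_le_right
    (hf.restrict inf_le_left)
  have h1 : Th F E c (P ⊓ T) f d :=
    Cfsg.Agent.Lib.H12YTh.th_restrict hd (inf_le_inf_right T hPP')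
  have h2 : d = 1 := Cfsg.Agent.Lib.H12YUniq.uniq h hW hP.2 (Nat.zero_le _) h1 hK
  rw [h2] at hd
  exact hd

/-- `S ⊓ T = T` (`inf_eq_right.2 h.hTS`).  `←`: `th_of_aut`.  `→`: uniqueness (`T` is `E`-centric, `hT : E.IsCentric T` is given)
between `Th T a 1` and `Th T a (c a)`. -/
theorem k_top_iff [Finite S] (h : Ctx p F E c) (hW : WP F E c 0) (hT : E.IsCentric T) {a : Ω → Ω}
    (ha : IsMap F S a) : K F E c S a ↔ c a = 1 := by
  have hST : S ⊓ T = T := inf_eq_right.2 h.hTS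
  have haT : IsMap F T a := ha.restrict h.hTS
  have h0 : Th F E c T a (c a) := Cfsg.Agent.Lib.H12YTh.th_of_aut le_rfl haT
  unfold K
  rw [hST]
  constructor
  · intro hK
    exact Cfsg.Agent.Lib.H12YUniq.uniq h hW hT (Nat.zero_le _) h0 hK
  · intro hc
    rw [hc] at h0
    exact h0

end Cfsg.Agent.Lib.H12YKExt
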