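import Mathlib
import Cfsg.Agent.Lib.H12YDefs
import Cfsg.Agent.Lib.H12YKExt
import Cfsg.Agent.Lib.H12YInf

set_option autoImplicit false

namespace Cfsg.Agent.Lib.H12YAut

open Cfsg Cfsg.FusionSystem Cfsg.Agent.Lib.Helper87Fusion Cfsg.Agent.Lib.H12YDefs
  Cfsg.Agent.Lib.Helper87Fusion2

variable {Ω : Type*} [Group Ω] {S T : Subgroup Ω} {Δ : Type*} [Group Δ]
  {p : ℕ} {F : FusionSystem S} {E : FusionSystem T} {c : (Ω → Ω) → Δ}

/-- the automorphisms of `S` in `F₀` are those of `F` whose restriction to `T` lies in the kernel of `χ`. -/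
theorem aut_iff [Finite S] [Fact p.Prime] (h : Ctx p F E c) (hW : WP F E c 0) (hTS : T ≤ S)
    (χ : ↥(F.autGroup T) →* Δ)
    (hlink : ∀ (β : ↥(F.autGroup T)) (b : Ω → Ω), (∀ t : T, (((β : MulAut T) t : T) : Ω) = b t) →
      c b = χ β) {F₀ : FusionSystem S}
    (hF₀ : ∀ P ∈ H S E, ∀ f : Ω → Ω, IsMap F₀ P f ↔ IsMap F P f ∧ K F E c P f) (α : MulAut ↥S) :
    α ∈ F₀.autGroup S ↔ α ∈ F.autGroup S ∧ ∃ β : ↥(F.autGroup T), χ β = 1 ∧
      ∀ t : ↥T, (((β : MulAut ↥T) t : ↥T) : Ω) = ((α ⟨(t : Ω), hTS t.2⟩ : ↥S) : Ω) := by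
  have : Finite T := h.finT
  have hcen : E.IsCentric T := Cfsg.Agent.Lib.H12YInf.centric_top
  rw [mem_autGroup_iff_totA F₀ le_rfl α, hF₀ S (Cfsg.Agent.Lib.H12YInf.top_mem_H hTS) (totA α),
    mem_autGroup_iff_totA F le_rfl α]
  refine and_congr_right ?_
  intro hα
  rw [Cfsg.Agent.Lib.H12YKExt.k_top_iff h hW hcen hα]
  constructor
  · intro hc
    have hαT : IsMap F T (totA α) := hα.restrict hTS
    have himg : totA α '' (T : Set Ω) = (T : Set Ω) :=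
      Cfsg.Agent.Lib.Helper87Split.image_of_stronglyClosed h.hT hα hTS
    obtain ⟨β, hβ, hβα⟩ := hαT.exists_aut himg
    refine ⟨⟨β, hβ⟩, ?_, ?_⟩
    · rw [← hlink ⟨β, hβ⟩ (totA α) hβα, hc]
    · intro t
      rw [← totA_of_mem α (hTS t.2)]
      exact hβα t
  · rintro ⟨β, hβ1, hβα⟩
    rw [hlink β (totA α) ?_, hβ1]
    intro t
    rw [totA_of_mem α (hTS t.2)]
    exact hβα t

end Cfsg.Agent.Lib.H12YAut
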