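import Mathlib
import Cfsg.Agent.Lib.H12YDefs

set_option autoImplicit false

namespace Cfsg.Agent.Lib.H12YCentAut

open Cfsg Cfsg.FusionSystem Cfsg.Agent.Lib.Helper87Fusion Cfsg.Agent.Lib.H12YDefs

variable {Ω : Type*} [Group Ω] {S T : Subgroup Ω} {Δ : Type*} [Group Δ]
  {p : ℕ} {F : FusionSystem S} {E : FusionSystem T} {c : (Ω → Ω) → Δ}

/-- `Aut_F(T)` permutes the `E`-centric subgroups.  `R' ≤ T` (`a '' T = T`).  Let `R''` be `E`-conjugate to `R'` via `ψ`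
(`isConj_iff`).  `ai` := inverse of `a` on `T`; `R₂ := ai '' R''`.  `ai ∘ ψ ∘ a` is an `E`-map on `R`
(`Helper88Normal.conj_aut hinv (P := R') (P' := R) .. hψ hai ..` : conjugate `ψ` by `ai`) with image `R₂`, so
`centralizerIn T R₂ ≤ R₂`.  If `g ∈ centralizerIn T R''` then `ai g ∈ centralizerIn T R₂` (`IsMap.map_mul`), so `ai g ∈ R₂ = ai '' R''`,
and `g ∈ R''` by injectivity (`IsMap.inj`). -/
theorem centric_aut [Finite S] (hinv : E.IsInvariantIn F) {R R' : Subgroup Ω} (hR : E.IsCentric R)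
    {a : Ω → Ω} (ha : IsMap F T a) (hR' : a '' (R : Set Ω) = (R' : Set Ω)) : E.IsCentric R' := by
  have hT := hinv.2.1
  have haT : a '' (T : Set Ω) = (T : Set Ω) :=
    Helper87Split.image_of_stronglyClosed hT ha le_rfl
  obtain ⟨ai, hai, h1, h2, haiT⟩ := ha.inv haT
  have hRT : R ≤ T := hR.1
  have hR'T : R' ≤ T := by
    intro y hy
    obtain ⟨x, hx, rfl⟩ := IsMap.exists_of_mem_image hR' hy
    exact IsMap.mem_image haT (hRT hx)
  have haiR' : ai '' (R' : Set Ω) = (R : Set Ω) := by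
    rw [← hR', Set.image_image]
    ext x
    constructor
    · rintro ⟨y, hy, rfl⟩
      beta_reduce
      rw [h1 y (hRT hy)]
      exact hy
    · intro hx
      exact ⟨x, hx, h1 x (hRT hx)⟩
  refine ⟨hR'T, fun R'' hconj => ?_⟩
  obtain ⟨ψ, hψ, hψR''⟩ := isConj_iff.1 hconj
  have hR''T : R'' ≤ T := hψ.image_le hψR''
  obtain ⟨R₂, hR₂⟩ := hai.exists_image_of_le hR''T
  have hd : IsMap E R (fun x => ai (ψ (a x))) :=
    Helper88Normal.conj_aut hinv hR'T hψ hai haiT haiR' (fun x hx => by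
      show ai (ψ (a (ai x))) = ai (ψ x)
      rw [h2 x (hR'T hx)])
  have hdim : (fun x => ai (ψ (a x))) '' (R : Set Ω) = (R₂ : Set Ω) := by
    rw [← hR₂, ← hψR'', ← hR', Set.image_image, Set.image_image]
  have hcen := hR.2 R₂ (isConj_iff.2 ⟨_, hd, hdim⟩)
  intro g hg
  rw [mem_centralizerIn] at hg
  obtain ⟨hgT, hgc⟩ := hg
  have hmem : ai g ∈ centralizerIn T R₂ := by
    rw [mem_centralizerIn]
    refine ⟨IsMap.mem_image haiT hgT, fun y hy => ?_⟩
    obtain ⟨x, hx, rfl⟩ := IsMap.exists_of_mem_image hR₂ hy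
    rw [← hai.map_mul (hR''T hx) hgT, ← hai.map_mul hgT (hR''T hx), hgc x hx]
  obtain ⟨x, hx, hxg⟩ := IsMap.exists_of_mem_image hR₂ (hcen hmem)
  have := hai.inj (hR''T hx) hgT hxg
  exact this ▸ hx

end Cfsg.Agent.Lib.H12YCentAut
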