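import Mathlib
import Cfsg.Agent.Lib.H12YDefs
import Cfsg.Agent.Lib.H12YTh

set_option autoImplicit false

namespace Cfsg.Agent.Lib.H12YConjS

open Cfsg Cfsg.FusionSystem Cfsg.Agent.Lib.Helper87Fusion Cfsg.Agent.Lib.H12YDefs

variable {Ω : Type*} [Group Ω] {S T : Subgroup Ω} {Δ : Type*} [Group Δ]
  {p : ℕ} {F : FusionSystem S} {E : FusionSystem T} {c : (Ω → Ω) → Δ}

/-- `a := c_g` is an `F`-map on `T` (`isMap_conj F h.hTS hg`).  By induction `c (fun x => g^k * x * (g^k)⁻¹) = (c a)^k`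
(`h.c_mul`, `h.c_congr`; each `c_{g^k}` is an `F`-map on `T`).  `g ^ p ^ m = 1` for some `m` (`h.hS ⟨g, hg⟩`), so `(c a)^(p^m) = c id = 1`
(`H12YTh.c_id`), and `h.c_pow`. -/
theorem c_conj (h : Ctx p F E c) {g : Ω} (hg : g ∈ S) : c (fun x => g * x * g⁻¹) = 1 := by
  have hmap : ∀ k : ℕ, IsMap F T (fun x => g ^ k * x * (g ^ k)⁻¹) :=
    fun k => isMap_conj F h.hTS (S.pow_mem hg k)
  have hpow : ∀ k : ℕ, c (fun x => g ^ k * x * (g ^ k)⁻¹) = (c (fun x => g * x * g⁻¹)) ^ k := by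
    intro k
    induction k with
    | zero =>
      rw [pow_zero (c fun x => g * x * g⁻¹), ← H12YTh.c_id h]
      apply h.c_congr
      intro x _
      simp
    | succ k ih =>
      rw [pow_succ (c fun x => g * x * g⁻¹), ← ih, ← h.c_mul _ _ (hmap k) (isMap_conj F h.hTS hg)]
      apply h.c_congr
      intro x _
      rw [pow_succ]
      group
  obtain ⟨m, hm⟩ := h.hS ⟨g, hg⟩
  have hm' : g ^ p ^ m = 1 := congrArg Subtype.val hm
  apply h.c_pow _ m
  rw [← hpow, ← H12YTh.c_id h]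
  apply h.c_congr
  intro x _
  rw [hm']
  simp

end Cfsg.Agent.Lib.H12YConjS
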