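import Mathlib
import Cfsg.Agent.Lib.H12YDefs
import Cfsg.Agent.Lib.H12YTh
import Cfsg.Agent.Lib.H12YInf

set_option autoImplicit false

namespace Cfsg.Agent.Lib.H12YELe

open Cfsg Cfsg.FusionSystem Cfsg.Agent.Lib.Helper87Fusion Cfsg.Agent.Lib.H12YDefs

variable {Ω : Type*} [Group Ω] {S T : Subgroup Ω} {Δ : Type*} [Group Δ]
  {p : ℕ} {F : FusionSystem S} {E : FusionSystem T} {c : (Ω → Ω) → Δ}

/-- `E ≤ F₀` by Alperin in `E`. -/
theorem e_le [Finite S] [Fact p.Prime] (h : Ctx p F E c) {F₀ : FusionSystem S}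
    (hF₀ : ∀ P ∈ H S E, ∀ f : Ω → Ω, IsMap F₀ P f ↔ IsMap F P f ∧ K F E c P f) :
    E.IsSubsystemOf F₀ := by
  have : Finite T := h.finT
  intro P φ hφ
  rw [mem_hom_iff]
  refine Cfsg.Agent.Lib.Helper86Sub.alperin_induction h.hTp E h.hE (fun P f => IsMap F₀ P f)
    ?_ ?_ ?_ ?_ ?_ (isMap_tot hφ)
  · intro P f g hfg hf
    exact hf.congr hfg
  · intro P g hP hg
    exact isMap_conj F₀ (hP.trans h.hTS) (h.hTS hg)
  · intro P Q f g _ _ hPQ hf hg
    exact hf.comp hg hPQ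
  · intro P Q f g _ hQ _ hgf hf
    obtain ⟨g', hg', h1, h2, _⟩ := hf.inv hQ
    refine hg'.congr ?_
    intro y hy
    obtain ⟨x, hx, rfl⟩ := IsMap.exists_of_mem_image hQ hy
    rw [h1 x hx, hgf x hx]
  · intro P f hP hf _
    have hPT : P ≤ T := hf.le
    have hcen : E.IsCentric P := by
      rcases hP with rfl | hP
      · exact Cfsg.Agent.Lib.H12YInf.centric_top
      · exact hP.1
    have hinf : P ⊓ T = P := inf_eq_left.2 hPT
    have hPH : P ∈ H S E := ⟨hPT.trans h.hTS, by rw [hinf]; exact hcen⟩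
    rw [hF₀ P hPH f]
    refine ⟨Cfsg.Agent.Lib.Helper88Normal.isMap_of_subsystem h.hsub hf, ?_⟩
    show Th F E c (P ⊓ T) f 1
    rw [hinf]
    exact Cfsg.Agent.Lib.H12YTh.th_of_E h hf

end Cfsg.Agent.Lib.H12YELe
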