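import Mathlib
import Cfsg.Agent.Lib.H12YDefs

set_option autoImplicit false

namespace Cfsg.Agent.Lib.H12YExt

open Cfsg Cfsg.FusionSystem Cfsg.Agent.Lib.Helper87Fusion Cfsg.Agent.Lib.H12YDefs

variable {Ω : Type*} [Group Ω] {S T : Subgroup Ω} {Δ : Type*} [Group Δ]
  {p : ℕ} {F : FusionSystem S} {E : FusionSystem T} {c : (Ω → Ω) → Δ}

/-- EXTENSION LEMMA (no `c`).  `Rs` receptive and centric in `E`, `Rs ≤ Q₁ ≤ N_T(Rs)`, `b1` an `F`-map on `Q₁` whose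
restriction to `Rs` is an `E`-automorphism of `Rs`.  Then `b1 = b' ∘ ρ⁻¹` with `b'` an `E`-map, `ρ` centralising `Rs` and `Q₁/Rs`. -/
theorem ext [Finite S] (hinv : E.IsInvariantIn F) {Rs Q₁ : Subgroup Ω} (hrec : E.IsReceptive Rs)
    (hcen : E.IsCentric Rs) (hRQ : Rs ≤ Q₁) (hQN : Q₁ ≤ normalizerIn T Rs) {b1 : Ω → Ω}
    (hb1 : IsMap F Q₁ b1) (hb1E : IsMap E Rs b1) (hb1Rs : b1 '' (Rs : Set Ω) = (Rs : Set Ω)) :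
    ∃ b' ρ : Ω → Ω, IsMap E Q₁ b' ∧ IsMap F Q₁ ρ ∧ ρ '' (Q₁ : Set Ω) = (Q₁ : Set Ω) ∧
      (∀ x ∈ Rs, ρ x = x) ∧ (∀ x ∈ Q₁, x⁻¹ * ρ x ∈ Rs) ∧ ∀ x ∈ Q₁, b' x = b1 (ρ x) := by
  have hQT : Q₁ ≤ T := hQN.trans (normalizerIn_le T Rs)
  have hb1T : ∀ x ∈ Q₁, b1 x ∈ T := fun x hx =>
    Cfsg.Agent.Lib.Helper87Fusion3.StronglyClosed_mem hinv.2.1 hb1 hx (hQT hx)
  obtain ⟨b', hb', hb'eq⟩ := isReceptive_extend (N := Q₁) hrec hb1E hb1Rs (fun g hg =>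
    ⟨hQT hg, (hQN hg).2, b1 g, hb1T g hg, fun x hx => hb1.map_conj hg (hRQ hx)⟩)
  -- step 2
  have hz : ∀ x ∈ Q₁, (b1 x)⁻¹ * b' x ∈ Rs := by
    intro x hx
    apply Cfsg.Agent.Lib.Helper87Fusion2.IsCentric_self hcen
    rw [mem_centralizerIn]
    refine ⟨T.mul_mem (T.inv_mem (hb1T x hx)) (hb'.mem hx), fun y hy => ?_⟩
    obtain ⟨y₀, hy₀, rfl⟩ := IsMap.exists_of_mem_image hb1Rs hy
    have hxn : x * y₀ * x⁻¹ ∈ Rs := ((mem_normalizerIn.1 (hQN hx)).2 y₀).1 hy₀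
    have e1 : b' (x * y₀ * x⁻¹) = b' x * b1 y₀ * (b' x)⁻¹ := by
      rw [hb'.map_conj hx (hRQ hy₀), hb'eq y₀ hy₀]
    have e2 : b' (x * y₀ * x⁻¹) = b1 x * b1 y₀ * (b1 x)⁻¹ := by
      rw [hb'eq _ hxn, hb1.map_conj hx (hRQ hy₀)]
    have e3 : b' x * b1 y₀ * (b' x)⁻¹ = b1 x * b1 y₀ * (b1 x)⁻¹ := e1.symm.trans e2
    have e4 : b' x * b1 y₀ = b1 x * b1 y₀ * (b1 x)⁻¹ * b' x := by
      rw [← e3]; group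
    calc b1 y₀ * ((b1 x)⁻¹ * b' x) = (b1 x)⁻¹ * (b1 x * b1 y₀ * (b1 x)⁻¹ * b' x) := by group
      _ = (b1 x)⁻¹ * (b' x * b1 y₀) := by rw [e4]
      _ = (b1 x)⁻¹ * b' x * b1 y₀ := by group
  obtain ⟨Q₂, hQ₂⟩ := hb1.exists_image
  obtain ⟨b1i, hb1i, hi1, hi2, hi3⟩ := hb1.inv hQ₂
  have key : ∀ x ∈ Q₁, ∃ z₀ ∈ Rs, b' x = b1 (x * z₀) := by
    intro x hx
    obtain ⟨z₀, hz₀, hzz⟩ := IsMap.exists_of_mem_image hb1Rs (hz x hx)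
    refine ⟨z₀, hz₀, ?_⟩
    rw [hb1.map_mul hx (hRQ hz₀), hzz]
    group
  have hb'Q₂ : ∀ x ∈ Q₁, b' x ∈ Q₂ := by
    intro x hx
    obtain ⟨z₀, hz₀, h⟩ := key x hx
    rw [h]
    exact IsMap.mem_image hQ₂ (Q₁.mul_mem hx (hRQ hz₀))
  have hρ : IsMap F Q₁ (fun x => b1i (b' x)) :=
    (Cfsg.Agent.Lib.Helper88Normal.isMap_of_subsystem hinv.1 hb').comp hb1i hb'Q₂
  have hρx : ∀ x ∈ Q₁, ∃ z₀ ∈ Rs, b1i (b' x) = x * z₀ := by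
    intro x hx
    obtain ⟨z₀, hz₀, h⟩ := key x hx
    exact ⟨z₀, hz₀, by rw [h, hi1 _ (Q₁.mul_mem hx (hRQ hz₀))]⟩
  refine ⟨b', fun x => b1i (b' x), hb', hρ,
    Cfsg.Agent.Lib.Helper88Normal.image_eq_of_maps_to hρ ?_, ?_, ?_, ?_⟩
  · intro x hx
    obtain ⟨z₀, hz₀, h⟩ := hρx x hx
    show b1i (b' x) ∈ Q₁
    rw [h]
    exact Q₁.mul_mem hx (hRQ hz₀)
  · intro x hx
    show b1i (b' x) = x
    rw [hb'eq x hx, hi1 x (hRQ hx)]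
  · intro x hx
    obtain ⟨z₀, hz₀, h⟩ := hρx x hx
    show x⁻¹ * b1i (b' x) ∈ Rs
    rw [h]
    simpa using hz₀
  · intro x hx
    exact (hi2 _ (hb'Q₂ x hx)).symm

end Cfsg.Agent.Lib.H12YExt
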