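import Mathlib
import Cfsg.Agent.Lib.H12YDefs

set_option autoImplicit false

namespace Cfsg.Agent.Lib.H12YGeoA

open Cfsg Cfsg.FusionSystem Cfsg.Agent.Lib.Helper87Fusion Cfsg.Agent.Lib.H12YDefs

variable {Ω : Type*} [Group Ω] {S T : Subgroup Ω} {Δ : Type*} [Group Δ]
  {p : ℕ} {F : FusionSystem S} {E : FusionSystem T} {c : (Ω → Ω) → Δ}

/-- `hE R hR` gives `Rs` (`E.IsConj R Rs`, fully automized, receptive).  `R'` is also `E`-conjugate to `Rs`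
(`isConj_symm`, `isConj_trans`).  Apply `Cfsg.Agent.Lib.Helper86Fusion.exists_normalizer_map hTp E Rs R ..` and
`.. Rs R' ..` (fusion system `E` over the finite `p`-group `T`). -/
theorem geoA [Finite T] [Fact p.Prime] (hTp : IsPGroup p T) (hE : E.IsSaturated p) {R R' : Subgroup Ω}
    (hR : R ≤ T) (hc : E.IsConj R R') :
    ∃ (Rs : Subgroup Ω) (κ κ' : Ω → Ω), E.IsReceptive Rs ∧ E.IsConj R Rs ∧
      IsMap E (normalizerIn T R) κ ∧ κ '' (R : Set Ω) = (Rs : Set Ω) ∧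
      (∀ x ∈ normalizerIn T R, κ x ∈ normalizerIn T Rs) ∧
      IsMap E (normalizerIn T R') κ' ∧ κ' '' (R' : Set Ω) = (Rs : Set Ω) ∧
      (∀ x ∈ normalizerIn T R', κ' x ∈ normalizerIn T Rs) := by
  obtain ⟨Rs, hRs, hfa, hrec⟩ := hE R hR
  obtain ⟨κ, h1, h2, h3⟩ := Cfsg.Agent.Lib.Helper86Fusion.exists_normalizer_map hTp E Rs R hfa hrec hRs
  obtain ⟨κ', h1', h2', h3'⟩ := Cfsg.Agent.Lib.Helper86Fusion.exists_normalizer_map hTp E Rs R' hfa hrec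
    (isConj_trans (isConj_symm hc) hRs)
  exact ⟨Rs, κ, κ', hrec, hRs, h1, h2, h3, h1', h2', h3'⟩

end Cfsg.Agent.Lib.H12YGeoA
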