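import Mathlib
import Cfsg.Agent.Lib.H12YDefs
import Cfsg.Agent.Lib.H12YGeoA

set_option autoImplicit false

namespace Cfsg.Agent.Lib.H12YGeo

open Cfsg Cfsg.FusionSystem Cfsg.Agent.Lib.Helper87Fusion Cfsg.Agent.Lib.H12YDefs

variable {Ω : Type*} [Group Ω] {S T : Subgroup Ω} {Δ : Type*} [Group Δ]
  {p : ℕ} {F : FusionSystem S} {E : FusionSystem T} {c : (Ω → Ω) → Δ}

/-- GEOMETRY OF THE STEP (no `c`). -/
theorem geo [Finite S] [Fact p.Prime] (hS : IsPGroup p S) (hE : E.IsSaturated p)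
    (hinv : E.IsInvariantIn F) {R : Subgroup Ω} (hR : E.IsCentric R) {b : Ω → Ω}
    (hb : IsMap F T b) (hbR : IsMap E R b) :
    ∃ (Rs Q₁ Q₂ : Subgroup Ω) (b1 κ l : Ω → Ω),
      E.IsReceptive Rs ∧ E.IsCentric Rs ∧ Rs ≤ Q₁ ∧ Q₁ ≤ normalizerIn T Rs ∧
      IsMap F Q₁ b1 ∧ IsMap E Rs b1 ∧ b1 '' (Rs : Set Ω) = (Rs : Set Ω) ∧
      b1 '' (Q₁ : Set Ω) = (Q₂ : Set Ω) ∧
      IsMap E (normalizerIn T R) κ ∧ κ '' (normalizerIn T R : Set Ω) = (Q₁ : Set Ω) ∧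
      IsMap E Q₂ l ∧ ∀ x ∈ normalizerIn T R, b x = l (b1 (κ x)) := by
  have hTS : T ≤ S := hinv.2.1.1
  have hT : F.StronglyClosed T := hinv.2.1
  have hTp : IsPGroup p T := hS.to_le hTS
  have : Finite T := Cfsg.Agent.Lib.Helper86Fusion.finite_of_le hTS
  have hsub : E.IsSubsystemOf F := hinv.1
  have hRT : R ≤ T := hR.1
  obtain ⟨R', hR'⟩ := hbR.exists_image
  have hc : E.IsConj R R' := isConj_iff.2 ⟨b, hbR, hR'⟩
  have hR'T : R' ≤ T := isConj_le_right hc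
  obtain ⟨Rs, κ, κ', hrec, hcRs, hκ, hκR, hκN, hκ', hκ'R, hκ'N⟩ :=
    Cfsg.Agent.Lib.H12YGeoA.geoA hTp hE hRT hc
  have hNT : normalizerIn T R ≤ T := normalizerIn_le T R
  have hRN : R ≤ normalizerIn T R := le_normalizerIn hRT
  have hR'N : R' ≤ normalizerIn T R' := le_normalizerIn hR'T
  obtain ⟨Q₁, hQ₁⟩ := hκ.exists_image
  obtain ⟨κi, hκi, hκi1, hκi2, hκi3⟩ := hκ.inv hQ₁
  -- `b` maps `N` into the normalizer of `R'`
  have hbN : ∀ x ∈ normalizerIn T R, b x ∈ normalizerIn T R' := by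
    intro x hx
    have hxT : x ∈ T := hNT hx
    refine ⟨Cfsg.Agent.Lib.Helper87Fusion3.StronglyClosed_mem hT hb hxT hxT, ?_⟩
    apply Cfsg.Agent.Lib.Helper86Fusion.mem_normalizer_of_conj_mem
    · intro y hy
      obtain ⟨r, hr, rfl⟩ := IsMap.exists_of_mem_image hR' hy
      rw [← hb.map_conj hxT (hRT hr)]
      exact IsMap.mem_image hR' ((Subgroup.mem_normalizer_iff.1 hx.2 r).1 hr)
    · intro y hy
      obtain ⟨r, hr, rfl⟩ := IsMap.exists_of_mem_image hR' hy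
      have hx' : x⁻¹ ∈ normalizerIn T R := (normalizerIn T R).inv_mem hx
      have h1 := hb.map_conj (T.inv_mem hxT) (hRT hr)
      rw [hb.map_inv hxT, inv_inv, inv_inv] at h1
      rw [← h1]
      have h2 := (Subgroup.mem_normalizer_iff.1 hx'.2 r).1 hr
      rw [inv_inv] at h2
      exact IsMap.mem_image hR' h2
  have hRsQ₁ : Rs ≤ Q₁ := by
    intro y hy
    obtain ⟨r, hr, rfl⟩ := IsMap.exists_of_mem_image hκR hy
    exact IsMap.mem_image hQ₁ (hRN hr)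
  have hQ₁N : Q₁ ≤ normalizerIn T Rs := by
    intro y hy
    obtain ⟨x, hx, rfl⟩ := IsMap.exists_of_mem_image hQ₁ hy
    exact hκN x hx
  have hκiR : ∀ y ∈ Rs, κi y ∈ R := by
    intro y hy
    obtain ⟨r, hr, rfl⟩ := IsMap.exists_of_mem_image hκR hy
    rw [hκi1 r (hRN hr)]
    exact hr
  have h1 : IsMap F Q₁ (fun y => b (κi y)) :=
    (Cfsg.Agent.Lib.Helper88Normal.isMap_of_subsystem hsub hκi).comp hb
      (fun y hy => hNT (IsMap.mem_image hκi3 hy))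
  have h2 : IsMap F Q₁ (fun y => κ' (b (κi y))) :=
    h1.comp (Cfsg.Agent.Lib.Helper88Normal.isMap_of_subsystem hsub hκ')
      (fun y hy => hbN _ (IsMap.mem_image hκi3 hy))
  have h3 : IsMap E Rs (fun y => b (κi y)) := (hκi.restrict hRsQ₁).comp hbR hκiR
  have h4 : IsMap E Rs (fun y => κ' (b (κi y))) :=
    h3.comp (hκ'.restrict hR'N) (fun y hy => IsMap.mem_image hR' (hκiR y hy))
  have h5 : (fun y => κ' (b (κi y))) '' (Rs : Set Ω) = (Rs : Set Ω) := by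
    ext z
    constructor
    · rintro ⟨y, hy, rfl⟩
      exact IsMap.mem_image hκ'R (IsMap.mem_image hR' (hκiR y hy))
    · intro hz
      obtain ⟨r', hr', rfl⟩ := IsMap.exists_of_mem_image hκ'R hz
      obtain ⟨r, hr, rfl⟩ := IsMap.exists_of_mem_image hR' hr'
      refine ⟨κ r, IsMap.mem_image hκR hr, ?_⟩
      show κ' (b (κi (κ r))) = _
      rw [hκi1 r (hRN hr)]
  obtain ⟨Q₂, hQ₂⟩ := h2.exists_image
  obtain ⟨N', hN'⟩ := (hb.restrict hNT).exists_image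
  have hN'le : N' ≤ normalizerIn T R' := by
    intro y hy
    obtain ⟨x, hx, rfl⟩ := IsMap.exists_of_mem_image hN' hy
    exact hbN x hx
  have hκ'N' : κ' '' (N' : Set Ω) = (Q₂ : Set Ω) := by
    rw [← hQ₂]
    ext z
    constructor
    · rintro ⟨y, hy, rfl⟩
      obtain ⟨x, hx, rfl⟩ := IsMap.exists_of_mem_image hN' hy
      refine ⟨κ x, IsMap.mem_image hQ₁ hx, ?_⟩
      show κ' (b (κi (κ x))) = _
      rw [hκi1 x hx]
    · rintro ⟨y, hy, rfl⟩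
      exact ⟨b (κi y), IsMap.mem_image hN' (IsMap.mem_image hκi3 hy), rfl⟩
  obtain ⟨l, hl, hl1, -, -⟩ := (hκ'.restrict hN'le).inv hκ'N'
  refine ⟨Rs, Q₁, Q₂, fun y => κ' (b (κi y)), κ, l, hrec,
    Cfsg.Agent.Lib.Helper87Fusion2.isCentric_of_isConj hR hcRs, hRsQ₁, hQ₁N, h2, h4, h5, hQ₂,
    hκ, hQ₁, hl, fun x hx => ?_⟩
  show b x = l (κ' (b (κi (κ x))))
  rw [hκi1 x hx, hl1 (b x) (IsMap.mem_image hN' hx)]

end Cfsg.Agent.Lib.H12YGeo
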