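import Mathlib
import Cfsg.Agent.Lib.H12YDefs
import Cfsg.Agent.Lib.H12YInf
import Cfsg.Agent.Lib.H12YCentAut

set_option autoImplicit false

namespace Cfsg.Agent.Lib.H12YHConj

open Cfsg Cfsg.FusionSystem Cfsg.Agent.Lib.Helper87Fusion Cfsg.Agent.Lib.H12YDefs

variable {Ω : Type*} [Group Ω] {S T : Subgroup Ω} {Δ : Type*} [Group Δ]
  {p : ℕ} {F : FusionSystem S} {E : FusionSystem T} {c : (Ω → Ω) → Δ}

/-- `f : P → Q` an `F`-isomorphism (`isConj_iff`).  `f '' (P ⊓ T) = Q ⊓ T` (`H12YInf.image_inf`).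
`Helper88Normal.frattini hinv inf_le_right (hf.restrict inf_le_left)` : `f = a ∘ e` on `P ⊓ T`; `R₁ := e '' (P ⊓ T)` is `E`-conjugate to
`P ⊓ T`, so `E`-centric (`isCentric_of_isConj`); `a '' R₁ = Q ⊓ T`; `H12YCentAut.centric_aut`.  `Q ≤ S` by `isConj_le_right`. -/
theorem conj_mem_H [Finite S] (hinv : E.IsInvariantIn F) {P Q : Subgroup Ω} (hP : P ∈ H S E)
    (hc : F.IsConj P Q) : Q ∈ H S E := by
  obtain ⟨hPS, hPc⟩ := hP
  obtain ⟨f, hf, hQ⟩ := isConj_iff.1 hc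
  have hT : F.StronglyClosed T := hinv.2.1
  have himg := H12YInf.image_inf hT hf hQ
  obtain ⟨a, e, ha, haT, he, hfe⟩ := Cfsg.Agent.Lib.Helper88Normal.frattini hinv
    (inf_le_right : P ⊓ T ≤ T) (hf.restrict inf_le_left)
  obtain ⟨R₁, hR₁⟩ := he.exists_image
  have hR₁c : E.IsCentric R₁ :=
    Cfsg.Agent.Lib.Helper87Fusion2.isCentric_of_isConj hPc (isConj_iff.2 ⟨e, he, hR₁⟩)
  have haR : a '' (R₁ : Set Ω) = ((Q ⊓ T : Subgroup Ω) : Set Ω) := by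
    rw [← himg, ← hR₁]
    ext y
    constructor
    · rintro ⟨_, ⟨x, hx, rfl⟩, rfl⟩
      exact ⟨x, hx, hfe x hx⟩
    · rintro ⟨x, hx, rfl⟩
      exact ⟨e x, ⟨x, hx, rfl⟩, (hfe x hx).symm⟩
  exact ⟨isConj_le_right hc, H12YCentAut.centric_aut hinv hR₁c ha haR⟩

end Cfsg.Agent.Lib.H12YHConj
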