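import Mathlib
import Cfsg.Agent.Lib.H12YDefs
import Cfsg.Agent.Lib.H12YTh

set_option autoImplicit false

namespace Cfsg.Agent.Lib.H12YThInv

open Cfsg Cfsg.FusionSystem Cfsg.Agent.Lib.Helper87Fusion Cfsg.Agent.Lib.H12YDefs

variable {Ω : Type*} [Group Ω] {S T : Subgroup Ω} {Δ : Type*} [Group Δ]
  {p : ℕ} {F : FusionSystem S} {E : FusionSystem T} {c : (Ω → Ω) → Δ}

/-- `(a f₀)⁻¹ = a⁻¹ (a f₀⁻¹ a⁻¹)`.  COPY the proof of `Cfsg.Agent.Lib.Helper87Invariant.Fr.inv`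
(same statement without `c`); instead of `hSI` use `Cfsg.Agent.Lib.Helper88Normal.conj_aut h.hinv`;
`c ai = (c a)⁻¹` by `H12YTh.c_inv`. -/
theorem th_inv [Finite S] (h : Ctx p F E c) {R R₁ : Subgroup Ω} {f g : Ω → Ω} {d : Δ}
    (hf : Th F E c R f d) (hR₁ : f '' (R : Set Ω) = (R₁ : Set Ω)) (hg : ∀ x ∈ R, g (f x) = x) :
    Th F E c R₁ g d⁻¹ := by
  obtain ⟨a, f₀, h1, h2, hc, h3⟩ := hf
  have haT := Cfsg.Agent.Lib.Helper87Split.image_of_stronglyClosed h.hT h1 le_rfl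
  obtain ⟨ai, hai, i1, i2, i3⟩ := h1.inv haT
  obtain ⟨P₀, hP₀⟩ := h2.exists_image
  obtain ⟨fi, hfi, j1, j2, j3⟩ := h2.inv hP₀
  have hP₀T : P₀ ≤ T := h2.image_le hP₀
  have haP₀ : a '' (P₀ : Set Ω) = (R₁ : Set Ω) := by
    rw [← hP₀, ← hR₁, Set.image_image]
    exact Set.image_congr (fun x hx => (h3 x hx).symm)
  have hd : IsMap E R₁ (fun z => a (fi (ai z))) :=
    Cfsg.Agent.Lib.Helper88Normal.conj_aut h.hinv hP₀T hfi h1 haT haP₀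
      (fun x hx => by
        show a (fi (ai (a x))) = a (fi x)
        rw [i1 x (hP₀T hx)])
  refine ⟨ai, fun z => a (fi (ai z)), hai, hd, ?_, fun z hz => ?_⟩
  · rw [Cfsg.Agent.Lib.H12YTh.c_inv h h1 hai i1, hc]
  · obtain ⟨x, hx, rfl⟩ := IsMap.exists_of_mem_image hR₁ hz
    show g (f x) = ai (a (fi (ai (f x))))
    rw [hg x hx, h3 x hx, i1 _ (h2.mem hx), j1 x hx, i1 x (h2.le hx)]

end Cfsg.Agent.Lib.H12YThInv
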