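import Mathlib
import Cfsg.Agent.Lib.H12YDefs
import Cfsg.Agent.Lib.H12YTh
import Cfsg.Agent.Lib.H12YThComp
import Cfsg.Agent.Lib.H12YThInv
import Cfsg.Agent.Lib.H12YInf
import Cfsg.Agent.Lib.H12YConjS

set_option autoImplicit false

namespace Cfsg.Agent.Lib.H12YKBasic

open Cfsg Cfsg.FusionSystem Cfsg.Agent.Lib.Helper87Fusion Cfsg.Agent.Lib.H12YDefs

variable {Ω : Type*} [Group Ω] {S T : Subgroup Ω} {Δ : Type*} [Group Δ]
  {p : ℕ} {F : FusionSystem S} {E : FusionSystem T} {c : (Ω → Ω) → Δ}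

theorem k_congr {P : Subgroup Ω} {f g : Ω → Ω} (hfg : ∀ x ∈ P, f x = g x) (hf : K F E c P f) :
    K F E c P g :=
  Cfsg.Agent.Lib.H12YTh.th_congr hf (fun x hx => hfg x hx.1)

/-- `th_of_aut inf_le_right (isMap_conj F h.hTS hg)` and `H12YConjS.c_conj`. -/
theorem k_conj (h : Ctx p F E c) {P : Subgroup Ω} {g : Ω} (hg : g ∈ S) :
    K F E c P (fun x => g * x * g⁻¹) := by
  have h1 : Th F E c (P ⊓ T) (fun x => g * x * g⁻¹) (c (fun x => g * x * g⁻¹)) :=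
    Cfsg.Agent.Lib.H12YTh.th_of_aut inf_le_right (isMap_conj F h.hTS hg)
  rw [Cfsg.Agent.Lib.H12YConjS.c_conj h hg] at h1
  exact h1

/-- `th_comp` (`f` maps `P ⊓ T` into `Q ⊓ T`, `StronglyClosed_mem h.hT hf`), `1 * 1 = 1`. -/
theorem k_comp [Finite S] (h : Ctx p F E c) {P Q : Subgroup Ω} {f g : Ω → Ω} (hf : IsMap F P f)
    (hfQ : ∀ x ∈ P, f x ∈ Q) (h1 : K F E c P f) (h2 : K F E c Q g) :
    K F E c P (fun x => g (f x)) := by
  have h3 : Th F E c (P ⊓ T) (fun x => g (f x)) (1 * 1) :=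
    Cfsg.Agent.Lib.H12YThComp.th_comp h h1 h2 (fun x hx =>
      ⟨hfQ x hx.1, Cfsg.Agent.Lib.Helper87Fusion3.StronglyClosed_mem h.hT hf hx.1 hx.2⟩)
  rw [one_mul] at h3
  exact h3

/-- `th_inv` with `H12YInf.image_inf`, `1⁻¹ = 1`. -/
theorem k_inv [Finite S] (h : Ctx p F E c) {P Q : Subgroup Ω} {f g : Ω → Ω} (hf : IsMap F P f)
    (hQ : f '' (P : Set Ω) = (Q : Set Ω)) (hg : ∀ x ∈ P, g (f x) = x) (h1 : K F E c P f) :
    K F E c Q g := by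
  have h3 : Th F E c (Q ⊓ T) g (1 : Δ)⁻¹ :=
    Cfsg.Agent.Lib.H12YThInv.th_inv h h1 (Cfsg.Agent.Lib.H12YInf.image_inf h.hT hf hQ)
      (fun x hx => hg x hx.1)
  rw [inv_one] at h3
  exact h3

end Cfsg.Agent.Lib.H12YKBasic
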