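import Mathlib
import Cfsg.Agent.Lib.H12YDefs
import Cfsg.Agent.Lib.H12YTh
import Cfsg.Agent.Lib.H12YConjS

set_option autoImplicit false

namespace Cfsg.Agent.Lib.H12YSurj

open Cfsg Cfsg.FusionSystem Cfsg.Agent.Lib.Helper87Fusion Cfsg.Agent.Lib.H12YDefs
open Cfsg.Agent.Lib.Helper87Fusion2 Cfsg.Agent.Lib.Helper87Fusion3 Cfsg.Agent.Lib.Helper87Sylow
open Cfsg.Agent.Lib.Helper86Fusion Cfsg.Agent.Lib.Helper86Fusion2 Cfsg.Agent.Lib.Helper87Split

variable {Ω : Type*} [Group Ω] {S T : Subgroup Ω} {Δ : Type*} [Group Δ]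
  {p : ℕ} {F : FusionSystem S} {E : FusionSystem T} {c : (Ω → Ω) → Δ}

/-- SURJ: `Aut_F(S) → Aut_F(T) → Δ` is onto. -/
theorem surj [Finite S] [Fact p.Prime] (h : Ctx p F E c) (d : Δ) :
    ∃ a : Ω → Ω, IsMap F S a ∧ c a = d := by
  have hTS : T ≤ S := h.hTS
  have hT : F.StronglyClosed T := h.hT
  have : Finite T := h.finT
  obtain ⟨-, haut, hrec⟩ := saturated_fullyNormalized h.hS h.hF
    (fullyNormalized_of_stronglyClosed hT)
  have hmap : ∀ α ∈ F.autGroup T, IsMap F T (totA α) :=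
    fun α hα => (mem_autGroup_iff_totA F hTS α).1 hα
  have hone : c (totA (1 : MulAut T)) = 1 := by
    rw [h.c_congr (totA (1 : MulAut T)) (fun x => x) (fun x hx => by
      rw [totA_of_mem _ hx]; rfl)]
    exact Cfsg.Agent.Lib.H12YTh.c_id h
  have hmul : ∀ α ∈ F.autGroup T, ∀ β ∈ F.autGroup T,
      c (totA (α * β)) = c (totA α) * c (totA β) := by
    intro α hα β hβ
    rw [← h.c_mul _ _ (hmap α hα) (hmap β hβ)]
    apply h.c_congr
    intro x hx
    rw [totA_of_mem _ hx, totA_of_mem β hx, totA_apply]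
    rfl
  have hinv : ∀ α ∈ F.autGroup T, c (totA α⁻¹) = (c (totA α))⁻¹ := by
    intro α hα
    have h1 := hmul α⁻¹ ((F.autGroup T).inv_mem hα) α hα
    rw [inv_mul_cancel, hone] at h1
    exact eq_inv_of_mul_eq_one_left h1.symm
  let N : Subgroup (MulAut T) :=
    { carrier := {α | α ∈ F.autGroup T ∧ c (totA α) = 1}
      one_mem' := ⟨(F.autGroup T).one_mem, hone⟩
      mul_mem' := fun {α β} hα hβ => ⟨(F.autGroup T).mul_mem hα.1 hβ.1, by
        rw [hmul α hα.1 β hβ.1, hα.2, hβ.2, one_mul]⟩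
      inv_mem' := fun {α} hα => ⟨(F.autGroup T).inv_mem hα.1, by
        rw [hinv α hα.1, hα.2, inv_one]⟩ }
  have hNA : N ≤ F.autGroup T := fun α hα => hα.1
  have hn : ∀ a ∈ F.autGroup T, cj a N ≤ N := by
    rintro a ha _ ⟨ε, hε, rfl⟩
    show a * ε * a⁻¹ ∈ N
    refine ⟨(F.autGroup T).mul_mem ((F.autGroup T).mul_mem ha hε.1) ((F.autGroup T).inv_mem ha),
      ?_⟩
    rw [hmul _ ((F.autGroup T).mul_mem ha hε.1) _ ((F.autGroup T).inv_mem ha), hmul a ha ε hε.1,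
      hε.2, hinv a ha, mul_one, mul_inv_cancel]
  have hYA : autInducedBy S T ≤ F.autGroup T := autInducedBy_le_autGroup F hTS
  have hYN : autInducedBy S T ≤ N := by
    intro γ hγ
    refine ⟨hYA hγ, ?_⟩
    obtain ⟨g, hg, hgγ⟩ := (mem_autInducedBy_iff S T γ).1 hγ
    rw [h.c_congr (totA γ) (fun x => g * x * g⁻¹) (fun x hx => by
      rw [totA_of_mem _ hx]; exact hgγ ⟨x, hx⟩)]
    exact Cfsg.Agent.Lib.H12YConjS.c_conj h hg
  have hsyl : SylIn p (autInducedBy S T) (F.autGroup T) := (sylIn_iff hYA).2 haut.2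
  have hY : SylIn p (autInducedBy S T) N := hsyl.of_le hYN hNA
  obtain ⟨b, hb, hbd⟩ := h.c_surj d
  have hbT := image_of_stronglyClosed hT hb le_rfl
  obtain ⟨α, hα, hαb⟩ := hb.exists_aut hbT
  have hαd : c (totA α) = d := by
    rw [← hbd]
    apply h.c_congr
    intro x hx
    rw [totA_of_mem _ hx]
    exact hαb ⟨x, hx⟩
  obtain ⟨n, hnN, m, hmA, hnm, hmY⟩ :=
    Cfsg.Agent.Lib.Helper87Invariant.frattini_sylIn hNA hn hY hα
  have hmd : c (totA m) = d := by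
    rw [← hαd, hnm, hmul n hnN.1 m hmA, hnN.2, one_mul]
  have hSN : ∀ g ∈ S, g ∈ Subgroup.normalizer (T : Set Ω) := by
    intro g hg
    apply mem_normalizer_of_conj_mem
    · intro y hy
      exact StronglyClosed_conj_mem hT hg hy
    · intro y hy
      have := StronglyClosed_conj_mem hT (S.inv_mem hg) hy
      rwa [inv_inv] at this
  obtain ⟨a, ha, ham⟩ := isReceptive_extend (N := S) hrec (hmap m hmA) (totA_image m)
    (fun g hg => by
      refine ⟨hg, hSN g hg, ?_⟩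
      obtain ⟨γ, hγ, hγg⟩ := exists_conjAut (K := S) (P := T) hg (hSN g hg)
      have h1 : m * γ * m⁻¹ ∈ autInducedBy S T := by
        rw [← hmY]; exact conj_mem_cj hγ
      obtain ⟨k, hk, hkm⟩ := (mem_autInducedBy_iff S T _).1 h1
      refine ⟨k, hk, fun x hx => ?_⟩
      have h2 := hkm (m ⟨x, hx⟩)
      have h3 : (m * γ * m⁻¹) (m ⟨x, hx⟩) = m (γ ⟨x, hx⟩) := by
        show m (γ (m⁻¹ (m ⟨x, hx⟩))) = _
        rw [MulAut.inv_apply_self]
      have hgx : g * x * g⁻¹ ∈ T := (Subgroup.mem_normalizer_iff.1 (hSN g hg) x).1 hx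
      have h4 : γ ⟨x, hx⟩ = ⟨g * x * g⁻¹, hgx⟩ := Subtype.ext (hγg ⟨x, hx⟩)
      rw [h3, h4, ← totA_apply, ← totA_apply] at h2
      exact h2)
  exact ⟨a, ha, by rw [← hmd]; exact h.c_congr _ _ ham⟩

end Cfsg.Agent.Lib.H12YSurj
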