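import Mathlib
import Cfsg.Agent.Lib.H12YDefs
import Cfsg.Agent.Lib.Helper87Fusion3
import Cfsg.Agent.Lib.H12YTh
import Cfsg.Agent.Lib.H12YThComp
import Cfsg.Agent.Lib.H12YSurj

set_option autoImplicit false

namespace Cfsg.Agent.Lib.H12YKFrat

open Cfsg Cfsg.FusionSystem Cfsg.Agent.Lib.Helper87Fusion Cfsg.Agent.Lib.H12YDefs

variable {Ω : Type*} [Group Ω] {S T : Subgroup Ω} {Δ : Type*} [Group Δ]
  {p : ℕ} {F : FusionSystem S} {E : FusionSystem T} {c : (Ω → Ω) → Δ}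

/-- (k2).  `th_exists` : `Th (P ⊓ T) f d`.  `H12YSurj.surj h d` : `a` on `S` with `c a = d`; `a '' S = S`
(`Helper88Normal.image_eq_of_maps_to`), inverse `a'` (`IsMap.inv`), `c a' = d⁻¹` (`c_inv` with the restrictions to `T`).
`f₀ := a' ∘ f` is an `F`-map on `P`, `Th (P ⊓ T) f₀ (d⁻¹ * d)` by `th_comp` with `th_of_aut le_rfl (a' on T)` (`f` maps `P ⊓ T` into `T`). -/
theorem k_frat [Finite S] [Fact p.Prime] (h : Ctx p F E c) {P : Subgroup Ω} {f : Ω → Ω}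
    (hf : IsMap F P f) :
    ∃ a f₀ : Ω → Ω, IsMap F S a ∧ IsMap F P f₀ ∧ K F E c P f₀ ∧ ∀ x ∈ P, f x = a (f₀ x) := by
  have hT := h.hT
  obtain ⟨d, hd⟩ := H12YTh.th_exists h (inf_le_right : P ⊓ T ≤ T) (hf.restrict inf_le_left)
  obtain ⟨a, ha, hca⟩ := H12YSurj.surj h d
  have haS : a '' (S : Set Ω) = (S : Set Ω) :=
    Cfsg.Agent.Lib.Helper88Normal.image_eq_of_maps_to ha (fun x hx => ha.mem hx)
  obtain ⟨a', ha', ha'a, haa', -⟩ := ha.inv haS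
  have haT : IsMap F T a := ha.restrict h.hTS
  have ha'T : IsMap F T a' := ha'.restrict h.hTS
  have hca' : c a' = d⁻¹ := by
    rw [H12YTh.c_inv h haT ha'T (fun x hx => ha'a x (h.hTS hx)), hca]
  have hf₀ : IsMap F P (fun x => a' (f x)) := hf.comp ha' (fun x hx => hf.mem hx)
  refine ⟨a, fun x => a' (f x), ha, hf₀, ?_, fun x hx => (haa' _ (hf.mem hx)).symm⟩
  have h1 := H12YThComp.th_comp h hd (H12YTh.th_of_aut (E := E) (c := c) (le_refl T) ha'T)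
    (fun x hx => (Cfsg.Agent.Lib.Helper87Fusion3.StronglyClosed_mem_iff hT hf hx.1).2 hx.2)
  rw [hca', inv_mul_cancel] at h1
  exact h1

end Cfsg.Agent.Lib.H12YKFrat
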