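import Mathlib
import Cfsg.Agent.Lib.H12YDefs
import Cfsg.Agent.Lib.Helper87Fusion3
import Cfsg.Agent.Lib.H12YTh
import Cfsg.Agent.Lib.H12YThComp
import Cfsg.Agent.Lib.H12YInf

set_option autoImplicit false

namespace Cfsg.Agent.Lib.H12YKInvar

open Cfsg Cfsg.FusionSystem Cfsg.Agent.Lib.Helper87Fusion Cfsg.Agent.Lib.H12YDefs

variable {Ω : Type*} [Group Ω] {S T : Subgroup Ω} {Δ : Type*} [Group Δ]
  {p : ℕ} {F : FusionSystem S} {E : FusionSystem T} {c : (Ω → Ω) → Δ}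

/-- (k3).  `a'` maps `P' ⊓ T` into `P ⊓ T` (`P' = a '' P`, `StronglyClosed_mem_iff`); `Th (P' ⊓ T) a' (c a')` (`th_of_aut`, `a'` restricted to `T`),
`Th (P ⊓ T) f 1`, `Th T a (c a)`; `th_comp` twice gives the value `c a * (1 * c a') = 1` (`c_inv`). -/
theorem k_invar [Finite S] (h : Ctx p F E c) {P P' : Subgroup Ω} {a a' f : Ω → Ω} (ha : IsMap F S a)
    (ha' : IsMap F S a') (hh : ∀ x ∈ S, a' (a x) = x) (hP' : a '' (P : Set Ω) = (P' : Set Ω))
    (hf : IsMap F P f) (hK : K F E c P f) : K F E c P' (fun x => a (f (a' x))) := by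
  have hT := h.hT
  have haT : IsMap F T a := ha.restrict h.hTS
  have ha'T : IsMap F T a' := ha'.restrict h.hTS
  have hPS : P ≤ S := hf.le
  have hca' : c a' = (c a)⁻¹ := H12YTh.c_inv h haT ha'T (fun x hx => hh x (h.hTS hx))
  -- `a'` maps `P' ⊓ T` into `P ⊓ T`
  have hmaps : ∀ x ∈ P' ⊓ T, a' x ∈ P ⊓ T := by
    rintro x ⟨hx1, hx2⟩
    obtain ⟨y, hy, rfl⟩ := IsMap.exists_of_mem_image hP' hx1
    rw [hh y (hPS hy)]
    exact ⟨hy, (Cfsg.Agent.Lib.Helper87Fusion3.StronglyClosed_mem_iff hT ha (hPS hy)).1 hx2⟩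
  have h1 : Th F E c (P' ⊓ T) a' (c a') := H12YTh.th_of_aut inf_le_right ha'T
  have h2 : Th F E c (P' ⊓ T) (fun x => f (a' x)) (1 * c a') := H12YThComp.th_comp h h1 hK hmaps
  have h3 : Th F E c T a (c a) := H12YTh.th_of_aut le_rfl haT
  have h4 := H12YThComp.th_comp h h2 h3 (fun x hx =>
    (Cfsg.Agent.Lib.Helper87Fusion3.StronglyClosed_mem_iff hT hf (hmaps x hx).1).2 (hmaps x hx).2)
  rw [one_mul, hca', mul_inv_cancel] at h4
  exact h4

end Cfsg.Agent.Lib.H12YKInvar
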