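import Mathlib
import Cfsg.Agent.Lib.H12YDefs

set_option autoImplicit false

namespace Cfsg.Agent.Lib.H12YMkC

open Cfsg Cfsg.FusionSystem Cfsg.Agent.Lib.Helper87Fusion Cfsg.Agent.Lib.H12YDefs

variable {Ω : Type*} [Group Ω] {S T : Subgroup Ω} {Δ : Type*} [Group Δ]
  {p : ℕ} {F : FusionSystem S} {E : FusionSystem T} {c : (Ω → Ω) → Δ}

/-- CONSTRUCTION OF `c`.  `c b := if hb : ∃ β : F.autGroup T, ∀ t : T, ((β : MulAut T) t : Ω) = b t then χ hb.choose else 1` (classical).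
Such a `β` is unique (`Subtype.ext`, `MulEquiv.ext`), which gives the last clause and `c_congr`.  An `F`-map `a` on `T` has `a '' T = T`
(`Helper87Split.image_of_stronglyClosed`), so comes from `β ∈ F.autGroup T` (`IsMap.exists_aut`): `c_mul` from `map_mul χ`, `c_surj` from `hχ`
(`b := totA β`, `mem_autGroup_iff_totA`), `c_E` from `hker` (an `E`-map on `T` gives `α ∈ E.autGroup T`, which is also in `F.autGroup T`;
`Subgroup.mem_subgroupOf`, `MonoidHom.mem_ker`).  `c_pow`: `orderOf d ∣ p ^ k` and `orderOf d ∣ Nat.card Δ`, coprime.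
`hE.1 = ⟨E saturated, F saturated, invariant⟩`. -/
theorem exists_c [Finite S] [Fact p.Prime] (hS : IsPGroup p S) (hE : E.IsNormalIn F p) [Finite Δ]
    (hΔ : (Nat.card Δ).Coprime p) (χ : ↥(F.autGroup T) →* Δ) (hχ : Function.Surjective χ)
    (hker : (E.autGroup T).subgroupOf (F.autGroup T) ≤ χ.ker) :
    ∃ c : (Ω → Ω) → Δ, Ctx p F E c ∧
      ∀ (β : ↥(F.autGroup T)) (b : Ω → Ω), (∀ t : T, (((β : MulAut T) t : T) : Ω) = b t) → c b = χ β := by
  classical
  obtain ⟨hEs, hFs, hinv⟩ := hE.1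
  have hT : F.StronglyClosed T := hinv.2.1
  have hTS : T ≤ S := hT.1
  have huniq : ∀ (β β' : ↥(F.autGroup T)) (b : Ω → Ω),
      (∀ t : T, (((β : MulAut T) t : T) : Ω) = b t) →
      (∀ t : T, (((β' : MulAut T) t : T) : Ω) = b t) → β = β' := by
    intro β β' b h h'
    apply Subtype.ext
    apply MulEquiv.ext
    intro t
    apply Subtype.ext
    rw [h, h']
  obtain ⟨c, hc⟩ : ∃ c : (Ω → Ω) → Δ, ∀ b, c b =
      if hb : ∃ β : ↥(F.autGroup T), ∀ t : T, (((β : MulAut T) t : T) : Ω) = b t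
      then χ hb.choose else 1 := ⟨_, fun _ => rfl⟩
  have key : ∀ (β : ↥(F.autGroup T)) (b : Ω → Ω),
      (∀ t : T, (((β : MulAut T) t : T) : Ω) = b t) → c b = χ β := by
    intro β b h
    have hb : ∃ β : ↥(F.autGroup T), ∀ t : T, (((β : MulAut T) t : T) : Ω) = b t := ⟨β, h⟩
    rw [hc, dif_pos hb, huniq _ β b hb.choose_spec h]
  have hex : ∀ a : Ω → Ω, IsMap F T a →
      ∃ β : ↥(F.autGroup T), ∀ t : T, (((β : MulAut T) t : T) : Ω) = a t := by
    intro a ha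
    obtain ⟨α, hα, hαa⟩ := ha.exists_aut
      (Cfsg.Agent.Lib.Helper87Split.image_of_stronglyClosed hT ha le_rfl)
    exact ⟨⟨α, hα⟩, hαa⟩
  refine ⟨c, ⟨hS, hFs, hEs, hinv, ?_, ?_, ?_, ?_, ?_⟩, key⟩
  · intro a b hab
    by_cases ha : ∃ β : ↥(F.autGroup T), ∀ t : T, (((β : MulAut T) t : T) : Ω) = a t
    · obtain ⟨β, hβ⟩ := ha
      rw [key β a hβ, key β b (fun t => (hβ t).trans (hab t t.2))]
    · have hb : ¬ ∃ β : ↥(F.autGroup T), ∀ t : T, (((β : MulAut T) t : T) : Ω) = b t := by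
        rintro ⟨β, hβ⟩
        exact ha ⟨β, fun t => (hβ t).trans (hab t t.2).symm⟩
      rw [hc, hc, dif_neg ha, dif_neg hb]
  · intro a b ha hb
    obtain ⟨α, hα⟩ := hex a ha
    obtain ⟨β, hβ⟩ := hex b hb
    rw [key α a hα, key β b hβ, ← map_mul]
    apply key
    intro t
    show (((α : MulAut T) ((β : MulAut T) t) : T) : Ω) = a (b t)
    rw [hα, hβ]
  · intro a ha
    have haF : IsMap F T a := by
      obtain ⟨φ, hφ, hφa⟩ := ha
      exact ⟨φ, hinv.1 T hφ, hφa⟩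
    obtain ⟨α, hα, hαa⟩ := ha.exists_aut
      (Cfsg.Agent.Lib.Helper87Split.image_of_stronglyClosed hT haF le_rfl)
    have hαF : α ∈ F.autGroup T := (mem_autGroup_iff_isMap F hTS α hαa).2 haF
    rw [key ⟨α, hαF⟩ a hαa]
    exact MonoidHom.mem_ker.1 (hker (Subgroup.mem_subgroupOf.2 hα))
  · intro d
    obtain ⟨β, rfl⟩ := hχ d
    refine ⟨Cfsg.Agent.Lib.Helper87Fusion2.totA (β : MulAut T),
      (Cfsg.Agent.Lib.Helper87Fusion2.mem_autGroup_iff_totA F hTS _).1 β.2, ?_⟩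
    exact key β _ (fun t => (Cfsg.Agent.Lib.Helper87Fusion2.totA_apply _ t).symm)
  · intro d k hd
    have h1 : orderOf d ∣ p ^ k := orderOf_dvd_of_pow_eq_one hd
    have h2 : orderOf d ∣ Nat.card Δ := orderOf_dvd_natCard d
    have h3 : Nat.Coprime (Nat.card Δ) (p ^ k) := Nat.Coprime.pow_right k hΔ
    have h4 : orderOf d = 1 := Nat.eq_one_of_dvd_coprimes h3 h2 h1
    exact orderOf_eq_one_iff.1 h4

end Cfsg.Agent.Lib.H12YMkC
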