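import Mathlib
import Cfsg.Agent.Lib.H12YDefs
import Cfsg.Agent.Lib.H12YKExt
import Cfsg.Agent.Lib.H12YInf
import Cfsg.Agent.Lib.H12YSurj

set_option autoImplicit false

namespace Cfsg.Agent.Lib.H12YProper

open Cfsg Cfsg.FusionSystem Cfsg.Agent.Lib.Helper87Fusion Cfsg.Agent.Lib.H12YDefs

variable {Ω : Type*} [Group Ω] {S T : Subgroup Ω} {Δ : Type*} [Group Δ]
  {p : ℕ} {F : FusionSystem S} {E : FusionSystem T} {c : (Ω → Ω) → Δ}

/-- `exists_ne (1 : Δ)` gives `d ≠ 1`; `H12YSurj.surj h d` gives an `F`-map `a` on `S` with `c a = d`.  If all `Hom` sets agree, `a` is an `F₀`-map on `S`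
(unfold `IsMap`, rewrite), so `K S a` by `hF₀ S top_mem_H`, so `c a = 1` by `H12YKExt.k_top_iff`. -/
theorem proper [Finite S] [Fact p.Prime] [Nontrivial Δ] (h : Ctx p F E c) (hW : WP F E c 0)
    {F₀ : FusionSystem S}
    (hF₀ : ∀ P ∈ H S E, ∀ f : Ω → Ω, IsMap F₀ P f ↔ IsMap F P f ∧ K F E c P f) :
    ¬ (∀ P : Subgroup Ω, F₀.Hom P = F.Hom P) := by
  intro hall
  obtain ⟨d, hd⟩ := exists_ne (1 : Δ)
  obtain ⟨a, ha, hca⟩ := Cfsg.Agent.Lib.H12YSurj.surj h d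
  haveI : Finite T := h.finT
  have ha₀ : IsMap F₀ S a := by
    obtain ⟨φ, hφ, hφa⟩ := ha
    exact ⟨φ, by rw [hall S]; exact hφ, hφa⟩
  have hK := ((hF₀ S (Cfsg.Agent.Lib.H12YInf.top_mem_H h.hTS) a).1 ha₀).2
  have h1 := (Cfsg.Agent.Lib.H12YKExt.k_top_iff h hW Cfsg.Agent.Lib.H12YInf.centric_top ha).1 hK
  exact hd (hca.symm.trans h1)

end Cfsg.Agent.Lib.H12YProper
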