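import Mathlib
import Cfsg.Agent.Lib.H12YDefs
import Cfsg.Agent.S5251

set_option autoImplicit false

namespace Cfsg.Agent.Lib.H12YStar

open Cfsg Cfsg.FusionSystem Cfsg.Agent.Lib.Helper87Fusion Cfsg.Agent.Lib.H12YDefs

variable {Ω : Type*} [Group Ω] {S T : Subgroup Ω}
  {p : ℕ} {F : FusionSystem S} {E : FusionSystem T}

/-- (k4), from the landed row S5251. -/
theorem star [Finite S] [Fact p.Prime] (hS : IsPGroup p S) (hF : F.IsSaturated p)
    (hE : E.IsNormalIn F p) {P : Subgroup Ω} (hP : F.IsCentric P) (hPH : P ∉ H S E) :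
    ∃ Q, F.IsConj P Q ∧
      ¬ (autInducedBy S Q ⊓ (pCore p ↥(F.autGroup Q)).map (F.autGroup Q).subtype ≤ Inn Q) := by
  have hPT : ¬ E.IsCentric (P ⊓ T) := fun h => hPH ⟨hP.1, h⟩
  obtain ⟨⟨φ, hφ, x, hx, hxr, α, hα, hαx⟩, -⟩ := Cfsg.Agent.S5251.result p hS F hF E hE P hP hPT
  have hc : F.IsConj P φ.range := ⟨φ, hφ, rfl⟩
  refine ⟨φ.range, hc, fun hle => ?_⟩
  have hQc : F.IsCentric φ.range := Cfsg.Agent.Lib.Helper87Fusion2.isCentric_of_isConj hP hc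
  have h1 : α ∈ autInducedBy S φ.range := (mem_autInducedBy_iff S φ.range α).2 ⟨x, hx.1, hαx⟩
  exact Cfsg.Agent.Lib.Helper86Fusion3.conjAut_not_mem_inn
    (Cfsg.Agent.Lib.Helper87Fusion2.IsCentric_self hQc) hx.1 hxr hQc.1 hαx (hle ⟨h1, hα⟩)

/-- essential subgroups are in `H`, from the landed row S5251. -/
theorem ess_mem_H [Finite S] [Fact p.Prime] (hS : IsPGroup p S) (hF : F.IsSaturated p)
    (hE : E.IsNormalIn F p) {P : Subgroup Ω} (hP : F.IsEssential p P) : P ∈ H S E := by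
  by_contra hPH
  have hPT : ¬ E.IsCentric (P ⊓ T) := fun h => hPH ⟨hP.1.1, h⟩
  exact (Cfsg.Agent.S5251.result p hS F hF E hE P hP.1 hPT).2
    (Cfsg.Agent.Lib.Helper86Fusion3.essential_radical hS F P hP)

end Cfsg.Agent.Lib.H12YStar
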