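import Mathlib

set_option autoImplicit false

/-! PROJECT 3911 = AB (row S3911): vocabulary. -/

namespace Cfsg.Agent.Lib.H14AbDefs

/-- any two abelian subgroups of the same order are conjugate -/
def HB (G : Type*) [Group G] : Prop :=
  ∀ A B : Subgroup G, IsMulCommutative ↥A → IsMulCommutative ↥B → Nat.card ↥A = Nat.card ↥B →
    ∃ g : G, B = A.map (MulAut.conj g).toMonoidHom

/-- `H / N` is abelian and `H` is the only supplement of `N` in `H` -/
structure MinS (H : Type*) [Group H] (N : Subgroup H) : Prop where
  comm : commutator H ≤ N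
  min : ∀ K : Subgroup H, K ⊔ N = ⊤ → K = ⊤

end Cfsg.Agent.Lib.H14AbDefs
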