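import Mathlib
import Cfsg.Agent.Lib.H14AbDefs

set_option autoImplicit false

/-! PROJECT 3911 = AB (row S3911, 3u), piece `Chain` (est. 40m).  Keep file name, namespace, theorem name and statement; extra helper lemmas are fine.
Overview: notes/helper14/Ab/README.md. -/

namespace Cfsg.Agent.Lib.H14AbChain

open Cfsg Cfsg.Agent.Lib.H14AbDefs

theorem chain_aux {C : Type*} [Group C] [Finite C] [IsCyclic C] (R T : Subgroup C) (n : ℕ) (hn : 0 < n)
    (hT : Nat.card T = n) (hR : ∀ x ∈ R, x ^ n = 1) : R ≤ T := by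
  classical
  have : Fintype C := Fintype.ofFinite C
  have h1 : (Finset.univ.filter (fun a : C => a ^ n = 1)).card ≤ n := IsCyclic.card_pow_eq_one_le hn
  have h2 : (Finset.univ.filter (fun a : C => a ∈ T)).card = n := by
    rw [← hT, Nat.card_eq_fintype_card, Fintype.card_subtype]
  have h3 : Finset.univ.filter (fun a : C => a ∈ T) ⊆ Finset.univ.filter (fun a : C => a ^ n = 1) := by
    intro a ha
    rw [Finset.mem_filter] at ha ⊢
    refine ⟨ha.1, ?_⟩
    have h4 : (⟨a, ha.2⟩ : T) ^ Nat.card T = 1 := pow_card_eq_one'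
    rw [hT] at h4
    simpa using congrArg Subtype.val h4
  have h4 := Finset.eq_of_subset_of_card_le h3 (by rw [h2]; exact h1)
  intro x hx
  have h5 : x ∈ Finset.univ.filter (fun a : C => a ^ n = 1) := by simp [hR x hx]
  rw [← h4] at h5
  exact (Finset.mem_filter.1 h5).2

/-- PURE MATHLIB.  Subgroups of a cyclic `p`-group form a chain.  `Nat.card R = p ^ a`, `Nat.card T = p ^ b` (`IsPGroup.mono`/`IsPGroup.to_le`, `IsPGroup.iff_card`); wlog `a ≤ b`.  In a finite cyclic group a subgroup is determined by its order and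
contains all elements killed by its order: for `x ∈ R`, `x ^ (p ^ b) = 1`; the elements of the cyclic group `P` with `x ^ n = 1` are at most `n` (`IsCyclic.card_pow_eq_one_le`), and `T` already gives `p ^ b` of them; so `x ∈ T`.
[Or: generator `g` of `P` of order `p ^ c`: every subgroup is `zpowers (g ^ (p ^ i))`.] -/
theorem le_or_le {G : Type*} [Group G] [Finite G] {p : ℕ} [Fact p.Prime] (P : Subgroup G) (hP : IsPGroup p P)
    (hc : IsCyclic P) (R T : Subgroup G) (hR : R ≤ P) (hT : T ≤ P) : R ≤ T ∨ T ≤ R := by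
  have key : ∀ R T : Subgroup G, R ≤ P → T ≤ P → Nat.card R ∣ Nat.card T → R ≤ T := by
    intro R T hR hT hd
    have := hc
    have h1 := chain_aux (C := P) (R.subgroupOf P) (T.subgroupOf P) (Nat.card T) Nat.card_pos
      (Nat.card_congr (Subgroup.subgroupOfEquivOfLe hT).toEquiv) (by
        intro x hx
        have h2 : ((⟨(x : G), Subgroup.mem_subgroupOf.1 hx⟩ : R)) ^ Nat.card R = 1 := pow_card_eq_one'
        obtain ⟨k, hk⟩ := hd
        apply Subtype.ext
        have h3 : (x : G) ^ Nat.card R = 1 := congrArg Subtype.val h2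
        rw [Subgroup.coe_pow, hk, pow_mul, h3, one_pow]
        rfl)
    intro x hx
    exact Subgroup.mem_subgroupOf.1
      (h1 (Subgroup.mem_subgroupOf.2 hx : (⟨x, hR hx⟩ : P) ∈ R.subgroupOf P))
  obtain ⟨a, ha⟩ := IsPGroup.iff_card.1 (hP.to_le hR)
  obtain ⟨b, hb⟩ := IsPGroup.iff_card.1 (hP.to_le hT)
  rcases le_total a b with h | h
  · left
    exact key R T hR hT (by rw [ha, hb]; exact pow_dvd_pow p h)
  · right
    exact key T R hT hR (by rw [ha, hb]; exact pow_dvd_pow p h)

end Cfsg.Agent.Lib.H14AbChain
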