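import Mathlib
import Cfsg.Agent.Lib.H14AbDefs

set_option autoImplicit false

/-! PROJECT 3911 = AB (row S3911, 3u), piece `Comm` (est. 45m).  Keep file name, namespace, theorem name and statement; extra helper lemmas are fine.
Overview: notes/helper14/Ab/README.md. -/

namespace Cfsg.Agent.Lib.H14AbComm

open Cfsg Cfsg.Agent.Lib.H14AbDefs

/-- PURE MATHLIB.  All Sylow subgroups normal: `H` is the direct product of its Sylow subgroups: `(isNilpotent_of_finite_tfae (G := H)).out 3 4` gives `Nonempty ((∀ p : (Nat.card H).primeFactors, ∀ P : Sylow p H, (↑P : Subgroup H)) ≃* H)`;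
a product of commutative groups is commutative (transport along the `MulEquiv`: `e.symm (x * y) = e.symm (y * x)` by `funext`, `Subtype.ext`, `hc`).
[Other route: `x = ∏` of its primary parts; or: for `x` in a normal Sylow `p`-subgroup and `y` in a normal Sylow `q`-subgroup, `p ≠ q`, `⁅x, y⁆ ∈ P ⊓ Q = ⊥`, and `H` is generated by its Sylow subgroups (`Sylow` + `Subgroup.closure`...).] -/
theorem comm_of_sylow {H : Type*} [Group H] [Finite H]
    (hn : ∀ (p : ℕ) [Fact p.Prime] (Q : Sylow p H), (Q : Subgroup H).Normal)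
    (hc : ∀ (p : ℕ) [Fact p.Prime] (Q : Sylow p H), ∀ x ∈ (Q : Subgroup H), ∀ y ∈ (Q : Subgroup H), x * y = y * x) :
    ∀ x y : H, x * y = y * x := by
  have h3 : ∀ (p : ℕ) (_hp : Fact p.Prime) (P : Sylow p H), (↑P : Subgroup H).Normal :=
    fun p _ P => hn p P
  obtain ⟨e⟩ := ((Group.isNilpotent_of_finite_tfae (G := H)).out 3 4).1 h3
  intro x y
  apply e.symm.injective
  rw [map_mul, map_mul]
  funext q
  funext P
  apply Subtype.ext
  have : Fact (q : ℕ).Prime := ⟨Nat.prime_of_mem_primeFactors q.2⟩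
  exact hc q P _ (e.symm x q P).2 _ (e.symm y q P).2

end Cfsg.Agent.Lib.H14AbComm
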