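import Mathlib
import Cfsg.Agent.Lib.H14AbDefs

set_option autoImplicit false

/-! PROJECT 3911 = AB (row S3911, 3u), piece `SylN` (est. 35m).  Keep file name, namespace, theorem name and statement; extra helper lemmas are fine.
Overview: notes/helper14/Ab/README.md. -/

namespace Cfsg.Agent.Lib.H14AbSylN

open Cfsg Cfsg.Agent.Lib.H14AbDefs
open scoped commutatorElement

/-- PURE MATHLIB (Frattini argument).  `K₀ := ↑Q ⊔ N` is normal in `H` (it contains `commutator H`: `g k g⁻¹ = ⁅g, k⁆ * k`).  `Sylow.normalizer_sup_eq_top' Q (hP : ↑Q ≤ K₀) : normalizer ↑Q ⊔ K₀ = ⊤`;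
as `↑Q ≤ normalizer ↑Q` (`Subgroup.le_normalizer`) this gives `normalizer ↑Q ⊔ N = ⊤`, so `normalizer ↑Q = ⊤` by `h.min`, i.e. `Q` is normal (`Subgroup.normalizer_eq_top_iff`). -/
theorem sylow_normal {H : Type*} [Group H] [Finite H] {N : Subgroup H} [N.Normal] (h : MinS H N) (p : ℕ)
    [Fact p.Prime] (Q : Sylow p H) : (Q : Subgroup H).Normal := by
  have hK0 : ((Q : Subgroup H) ⊔ N).Normal := by
    constructor
    intro k hk g
    have h1 : g * k * g⁻¹ = ⁅g, k⁆ * k := by
      simp [commutatorElement_def]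
    rw [h1]
    apply mul_mem _ hk
    apply (le_sup_right : N ≤ (Q : Subgroup H) ⊔ N)
    apply h.comm
    rw [commutator_def]
    exact Subgroup.commutator_mem_commutator (Subgroup.mem_top g) (Subgroup.mem_top k)
  have h2 := Sylow.normalizer_sup_eq_top' Q (le_sup_left : (Q : Subgroup H) ≤ (Q : Subgroup H) ⊔ N)
  have h3 : Subgroup.normalizer (Q : Set H) ⊔ N = ⊤ := by
    rw [eq_top_iff, ← h2]
    exact sup_le le_sup_left (sup_le (Subgroup.le_normalizer.trans le_sup_left) le_sup_right)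
  exact (Subgroup.normalizer_eq_top_iff (H := (Q : Subgroup H))).1 (h.min _ h3)

end Cfsg.Agent.Lib.H14AbSylN
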