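import Mathlib
import Cfsg.Agent.Lib.H14AbDefs
import Cfsg.Agent.Lib.H14AbSylN

set_option autoImplicit false

/-! PROJECT 3911 = AB (row S3911, 3u), piece `SylBot` (est. 35m).  Keep file name, namespace, theorem name and statement; extra helper lemmas are fine.
Overview: notes/helper14/Ab/README.md. -/

namespace Cfsg.Agent.Lib.H14AbSylBot

open Cfsg Cfsg.Agent.Lib.H14AbDefs

/-- Schur-Zassenhaus.  `Q` is normal (`H14AbSylN.sylow_normal`), `Nat.card Q` is coprime to its index (`Sylow.card_coprime_index`), so there is a complement `K`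
(`Subgroup.exists_left_complement'_of_coprime` / `exists_right_complement'_of_coprime`): `K ⊔ ↑Q = ⊤` (`Subgroup.IsComplement'.sup_eq_top`), so `K ⊔ N = ⊤`, `K = ⊤` by `h.min`; `K ⊓ ↑Q = ⊥` (`IsComplement'.disjoint`) gives `↑Q = ⊥`. -/
theorem sylow_eq_bot {H : Type*} [Group H] [Finite H] {N : Subgroup H} [N.Normal] (h : MinS H N) (p : ℕ)
    [Fact p.Prime] (Q : Sylow p H) (hQ : (Q : Subgroup H) ≤ N) : (Q : Subgroup H) = ⊥ := by
  haveI hn : (Q : Subgroup H).Normal := H14AbSylN.sylow_normal h p Q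
  obtain ⟨K, hK⟩ := Subgroup.exists_left_complement'_of_coprime (N := (Q : Subgroup H))
    Q.card_coprime_index
  have h1 : K ⊔ (Q : Subgroup H) = ⊤ := hK.sup_eq_top
  have h2 : K ⊔ N = ⊤ := by
    rw [eq_top_iff, ← h1]
    exact sup_le_sup_left hQ K
  have h3 : K = ⊤ := h.min K h2
  have h4 := hK.disjoint
  rw [h3] at h4
  exact top_disjoint.mp h4

end Cfsg.Agent.Lib.H14AbSylBot
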