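import Mathlib
import Cfsg.Agent.Lib.H14AbDefs
import Cfsg.Agent.Lib.H14AbSylBot

set_option autoImplicit false

/-! PROJECT 3911 = AB (row S3911, 3u), piece `FacA` (est. 40m).  Keep file name, namespace, theorem name and statement; extra helper lemmas are fine.
Overview: notes/helper14/Ab/README.md. -/

namespace Cfsg.Agent.Lib.H14AbFacA

open Cfsg Cfsg.Agent.Lib.H14AbDefs

/-- `n := (M.subgroupOf A).index`.  Let `Q : Sylow p ↥A` (`default`/`Sylow.nonempty`).  The image of `Q` in `↥A ⧸ M.subgroupOf A` is a `p`-group whose order divides `n` (`Subgroup.card_dvd_of_le`/`Subgroup.card_subgroup_dvd_card`, `Subgroup.index_eq_card`), so it is trivial and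
`Q ≤ M.subgroupOf A` (`QuotientGroup.eq_one_iff`); [or: for `x ∈ Q`, `x ^ n ∈ M.subgroupOf A` (`Subgroup.pow_index_mem`) and `x ^ (p ^ k) = 1`, coprime exponents].  `H14AbSylBot.sylow_eq_bot h` gives `Q = ⊥`, so `p ∤ Nat.card A`
(`Sylow.card_eq_multiplicity`, or Cauchy: an element of order `p` lies in a conjugate of `Q`; `Sylow.ne_bot_of_dvd_card`). -/
theorem not_dvd {G : Type*} [Group G] [Finite G] (M : Subgroup G) [M.Normal] (A : Subgroup G)
    (h : MinS ↥A (M.subgroupOf A)) (p : ℕ) [Fact p.Prime] (hp : ¬ p ∣ (M.subgroupOf A).index) :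
    ¬ p ∣ Nat.card ↥A := by
  have hpp : p.Prime := Fact.out
  intro hdvd
  obtain ⟨Q⟩ : Nonempty (Sylow p ↥A) := inferInstance
  haveI : (M.subgroupOf A).Normal := inferInstance
  have hQ : (Q : Subgroup ↥A) ≤ M.subgroupOf A := by
    intro x hx
    obtain ⟨k, hk⟩ := Q.2 ⟨x, hx⟩
    have hk' : x ^ p ^ k = 1 := by simpa using congrArg Subtype.val hk
    have h1 : x ^ (M.subgroupOf A).index ∈ M.subgroupOf A := Subgroup.pow_index_mem _ x
    have hcop : Nat.Coprime (p ^ k) (M.subgroupOf A).index :=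
      Nat.Coprime.pow_left _ ((Nat.Prime.coprime_iff_not_dvd hpp).2 hp)
    have h2 : x ^ ((Nat.gcd (p ^ k) (M.subgroupOf A).index : ℕ) : ℤ) ∈ M.subgroupOf A := by
      rw [Nat.gcd_eq_gcd_ab, zpow_add, zpow_mul, zpow_mul, zpow_natCast, zpow_natCast, hk', one_zpow,
        one_mul]
      exact Subgroup.zpow_mem _ h1 _
    rw [hcop] at h2
    simpa using h2
  have hbot := H14AbSylBot.sylow_eq_bot h p Q hQ
  exact Q.ne_bot_of_dvd_card hdvd hbot

end Cfsg.Agent.Lib.H14AbFacA
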