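import Mathlib
import Cfsg.Agent.Lib.H14AbDefs

set_option autoImplicit false

/-! PROJECT 3911 = AB (row S3911, 3u), piece `MinEx` (est. 20m).  Keep file name, namespace, theorem name and statement; extra helper lemmas are fine.
Overview: notes/helper14/Ab/README.md. -/

namespace Cfsg.Agent.Lib.H14AbMinEx

open Cfsg Cfsg.Agent.Lib.H14AbDefs

/-- PURE MATHLIB.  The set `{A | A ≤ L ∧ A ⊔ M = L ⊔ M}` contains `L`; take a minimal element (finite group: `Subgroup G` is finite / well founded: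
`WellFounded.has_min` for `(· < ·)` (`wellFounded_lt`), or strong induction on `Nat.card A`). -/
theorem exists_min {G : Type*} [Group G] [Finite G] (M L : Subgroup G) :
    ∃ A : Subgroup G, A ≤ L ∧ A ⊔ M = L ⊔ M ∧ ∀ K : Subgroup G, K ≤ A → K ⊔ M = L ⊔ M → K = A := by
  classical
  have hne : {A : Subgroup G | A ≤ L ∧ A ⊔ M = L ⊔ M}.Nonempty := ⟨L, le_rfl, rfl⟩
  obtain ⟨A, hA, hmin⟩ := WellFounded.has_min (wellFounded_lt (α := Subgroup G)) _ hne
  refine ⟨A, hA.1, hA.2, fun K hK hKM => ?_⟩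
  by_contra hne'
  exact hmin K ⟨hK.trans hA.1, hKM⟩ (lt_of_le_of_ne hK hne')

end Cfsg.Agent.Lib.H14AbMinEx
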