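import Mathlib
import Cfsg.Agent.Lib.H14AbDefs

set_option autoImplicit false

/-! PROJECT 3911 = AB (row S3911, 3u), piece `MinTr` (est. 35m).  Keep file name, namespace, theorem name and statement; extra helper lemmas are fine.
Overview: notes/helper14/Ab/README.md. -/

namespace Cfsg.Agent.Lib.H14AbMinTr

open Cfsg Cfsg.Agent.Lib.H14AbDefs
open scoped commutatorElement

/-- PURE MATHLIB.  `comm`: `commutator ↥A = ⁅⊤, ⊤⁆`; `Subgroup.map_subtype_commutator`/elementwise: for `x y : ↥A`, `(⁅x, y⁆ : G) = ⁅(x:G), (y:G)⁆ ∈ ⁅A, A⁆ ≤ M` (`Subgroup.commutator_le`, `Subgroup.mem_subgroupOf`).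
`min`: let `K : Subgroup ↥A` with `K ⊔ M.subgroupOf A = ⊤`.  Put `K' := K.map A.subtype ≤ A`.  Mapping by `A.subtype` (`Subgroup.map_sup`, `Subgroup.subgroupOf_map_subtype : (H.subgroupOf K).map K.subtype = H ⊓ K`, `← MonoidHom.range_eq_map`, `Subgroup.range_subtype`):
`K' ⊔ (M ⊓ A) = A`, so `A ≤ K' ⊔ M` and `K' ⊔ M = A ⊔ M`; `hmin` gives `K' = A`, hence `K = ⊤` (`Subgroup.map_injective A.subtype_injective`, or elementwise). -/
theorem minS_of {G : Type*} [Group G] (M A : Subgroup G) [M.Normal] (hc : ⁅A, A⁆ ≤ M)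
    (hmin : ∀ K : Subgroup G, K ≤ A → K ⊔ M = A ⊔ M → K = A) : MinS ↥A (M.subgroupOf A) := by
  constructor
  · rw [commutator_def, Subgroup.commutator_le]
    intro x _ y _
    rw [Subgroup.mem_subgroupOf]
    apply hc
    have : ((⁅x, y⁆ : ↥A) : G) = ⁅(x : G), (y : G)⁆ := by
      simp [commutatorElement_def]
    rw [this]
    exact Subgroup.commutator_mem_commutator x.2 y.2
  · intro K hK
    have hK' : K.map A.subtype ≤ A := by
      rintro _ ⟨x, _, rfl⟩
      exact x.2
    have h1 : K.map A.subtype ⊔ (M ⊓ A) = A := by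
      have h2 := congrArg (Subgroup.map A.subtype) hK
      rw [Subgroup.map_sup, Subgroup.subgroupOf_map_subtype, ← MonoidHom.range_eq_map,
        Subgroup.range_subtype] at h2
      exact h2
    have h3 : K.map A.subtype ⊔ M = A ⊔ M := by
      apply le_antisymm
      · exact sup_le_sup_right hK' M
      · apply sup_le _ le_sup_right
        calc A = K.map A.subtype ⊔ (M ⊓ A) := h1.symm
          _ ≤ K.map A.subtype ⊔ M := sup_le_sup_left inf_le_left _
    have h4 := hmin _ hK' h3
    rw [eq_top_iff]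
    intro x _
    have hx : (x : G) ∈ K.map A.subtype := by
      rw [h4]
      exact x.2
    obtain ⟨y, hy, hyx⟩ := hx
    have : y = x := Subtype.ext hyx
    rwa [← this]

end Cfsg.Agent.Lib.H14AbMinTr
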