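import Mathlib
import Cfsg.Agent.Lib.H14AbDefs

set_option autoImplicit false

/-! PROJECT 3911 = AB (row S3911, 3u), piece `NoE` (est. 25m).  Keep file name, namespace, theorem name and statement; extra helper lemmas are fine.
Overview: notes/helper14/Ab/README.md. -/

namespace Cfsg.Agent.Lib.H14AbNoE

open Cfsg Cfsg.Agent.Lib.H14AbDefs

/-- PURE MATHLIB.  If `Nat.card W = p ^ 2 = Nat.card (zpowers x)` then `hB (zpowers x) W` gives `g` with `W = (zpowers x).map (conj g)`, so `g * x * g⁻¹ ∈ W`,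
`(g * x * g⁻¹) ^ p = 1`, `x ^ p = 1` (`conj_pow`), `orderOf x ∣ p`: contradiction with `orderOf x = p ^ 2`. -/
theorem no_elem {G : Type*} [Group G] [Finite G] (hB : HB G) {p : ℕ} [Fact p.Prime] (x : G)
    (hx : orderOf x = p ^ 2) (W : Subgroup G) (hW1 : IsMulCommutative ↥W) (hW2 : ∀ a ∈ W, a ^ p = 1) :
    Nat.card W ≠ p ^ 2 := by
  have hp : p.Prime := Fact.out
  intro hc
  have hz : IsMulCommutative ↥(Subgroup.zpowers x) := inferInstance
  obtain ⟨g, hg⟩ := hB (Subgroup.zpowers x) W hz hW1 (by rw [Nat.card_zpowers, hx, hc])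
  have hmem : g * x * g⁻¹ ∈ W := by
    rw [hg]
    exact ⟨x, Subgroup.mem_zpowers x, rfl⟩
  have h1 := hW2 _ hmem
  rw [conj_pow] at h1
  have h2 : x ^ p = 1 := by
    have e : x ^ p = g⁻¹ * (g * x ^ p * g⁻¹) * g := by group
    rw [e, h1]; group
  have h3 := orderOf_dvd_of_pow_eq_one h2
  rw [hx] at h3
  have h4 := Nat.le_of_dvd hp.pos h3
  have h5 : p < p ^ 2 := by
    have := hp.one_lt
    nlinarith
  omega

end Cfsg.Agent.Lib.H14AbNoE
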