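import Mathlib
import Cfsg.Agent.Lib.H14AbDefs

set_option autoImplicit false

/-! PROJECT 3911 = AB (row S3911, 3u), piece `OrdP` (est. 25m).  Keep file name, namespace, theorem name and statement; extra helper lemmas are fine.
Overview: notes/helper14/Ab/README.md. -/

namespace Cfsg.Agent.Lib.H14AbOrdP

open Cfsg Cfsg.Agent.Lib.H14AbDefs

/-- PURE MATHLIB.  Cauchy in `M` (`exists_prime_orderOf_dvd_card'` for `↥M`, `Subgroup.orderOf_coe`): `y ∈ M` of order `p`.  `zpowers y`, `zpowers x` are commutative of the same order `p` (`Nat.card_zpowers`), so `hB` gives `g` with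
`zpowers x = (zpowers y).map (conj g)`; `x = g * y ^ k * g⁻¹ ∈ M` by normality. -/
theorem mem_of_orderOf {G : Type*} [Group G] [Finite G] (hB : HB G) (M : Subgroup G) [M.Normal] {p : ℕ}
    [Fact p.Prime] (hp : p ∣ Nat.card M) (x : G) (hx : orderOf x = p) : x ∈ M := by
  obtain ⟨y, hy⟩ := exists_prime_orderOf_dvd_card' (G := M) p hp
  have hyo : orderOf (y : G) = p := by rw [Subgroup.orderOf_coe]; exact hy
  obtain ⟨g, hg⟩ := hB (Subgroup.zpowers (y : G)) (Subgroup.zpowers x) inferInstance inferInstance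
    (by rw [Nat.card_zpowers, Nat.card_zpowers, hyo, hx])
  have hx' : x ∈ (Subgroup.zpowers (y : G)).map (MulAut.conj g).toMonoidHom := by
    rw [← hg]
    exact Subgroup.mem_zpowers x
  obtain ⟨w, hw, rfl⟩ := hx'
  have hwM : w ∈ M := (Subgroup.zpowers_le.2 y.2) hw
  exact (inferInstance : M.Normal).conj_mem w hwM g

end Cfsg.Agent.Lib.H14AbOrdP
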