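import Mathlib
import Cfsg.Agent.Lib.H14AbDefs

set_option autoImplicit false

/-! PROJECT 3911 = AB (row S3911, 3u), piece `SylInf` (est. 40m).  Keep file name, namespace, theorem name and statement; extra helper lemmas are fine.
Overview: notes/helper14/Ab/README.md. -/

namespace Cfsg.Agent.Lib.H14AbSylInf

open Cfsg Cfsg.Agent.Lib.H14AbDefs
open scoped Pointwise

/-- PURE MATHLIB.  `P ⊓ M` is a Sylow `p`-subgroup of the normal subgroup `M`.  E.g.: `P ⊓ M` is a `p`-group, so its order is `p ^ j` dividing `Nat.card M`, `j ≤ v`; conversely the index of `P ⊓ M` in `M` equals `|PM : P|`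
(`Subgroup.relIndex_inf_mul_relIndex`, `Subgroup.inf_relIndex_right`, `Subgroup.relIndex_sup_right`/`relIndex_sup_left` for normal `M`), which divides `P.index`, prime to `p` (`Sylow.not_dvd_index`).
[Or: `Sylow.subtype`/`Sylow.comap`-type API: `(P.subtype ...)`; or take a Sylow `p`-subgroup `Q₀` of `M`, it lies in a conjugate `g P g⁻¹` (`IsPGroup.exists_le_sylow`, `MulAction.exists_smul_eq`), so `g⁻¹ Q₀ g ≤ P ⊓ M`; `Sylow.card_eq_multiplicity`.] -/
theorem card_sylow_inf {G : Type*} [Group G] [Finite G] (M : Subgroup G) [M.Normal] {p : ℕ} [Fact p.Prime]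
    (P : Sylow p G) : Nat.card ↥((P : Subgroup G) ⊓ M) = p ^ (Nat.card M).factorization p := by
  have hp : p.Prime := Fact.out
  obtain ⟨Q₀⟩ : Nonempty (Sylow p M) := inferInstance
  set Q1 : Subgroup G := (Q₀ : Subgroup M).map M.subtype with hQ1
  have hQ1p : IsPGroup p Q1 := Q₀.2.map _
  have hQ1M : Q1 ≤ M := by
    rintro x ⟨y, -, rfl⟩
    exact y.2
  have hQ1c : Nat.card Q1 = p ^ (Nat.card M).factorization p := by
    rw [hQ1, Subgroup.card_map_of_injective M.subtype_injective]
    exact Q₀.card_eq_multiplicity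
  obtain ⟨P', hP'⟩ := hQ1p.exists_le_sylow
  obtain ⟨g, hg⟩ := MulAction.exists_smul_eq G P' P
  have hle : Q1.map (MulAut.conj g).toMonoidHom ≤ (P : Subgroup G) ⊓ M := by
    rintro _ ⟨x, hx, rfl⟩
    refine ⟨?_, ?_⟩
    · have h1 : MulAut.conj g • x ∈ MulAut.conj g • (P' : Subgroup G) :=
        Subgroup.smul_mem_pointwise_smul _ _ _ (hP' hx)
      rw [← Sylow.coe_subgroup_smul, hg] at h1
      exact h1
    · show g * x * g⁻¹ ∈ M
      exact (inferInstance : M.Normal).conj_mem x (hQ1M hx) g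
  have h1 : p ^ (Nat.card M).factorization p ∣ Nat.card ↥((P : Subgroup G) ⊓ M) := by
    have h0 : Nat.card (Q1.map (MulAut.conj g).toMonoidHom) = Nat.card Q1 :=
      Subgroup.card_map_of_injective (f := (MulAut.conj g).toMonoidHom) (MulAut.conj g).injective
    rw [← hQ1c, ← h0]
    exact Subgroup.card_dvd_of_le hle
  have hpg : IsPGroup p ↥((P : Subgroup G) ⊓ M) := P.2.to_le inf_le_left
  obtain ⟨j, hj⟩ := hpg.exists_card_eq
  have h2 : p ^ j ∣ Nat.card M := by
    rw [← hj]
    exact Subgroup.card_dvd_of_le inf_le_right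
  have h3 : j ≤ (Nat.card M).factorization p :=
    (hp.pow_dvd_iff_le_factorization Nat.card_pos.ne').1 h2
  rw [hj] at h1 ⊢
  have h4 : (Nat.card M).factorization p ≤ j := (Nat.pow_dvd_pow_iff_le_right hp.one_lt).1 h1
  rw [le_antisymm h3 h4]

end Cfsg.Agent.Lib.H14AbSylInf
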