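import Mathlib
import Cfsg.Agent.Lib.H14AbDefs

set_option autoImplicit false

/-! PROJECT 3912 = AC (row S3912): vocabulary. -/

namespace Cfsg.Agent.Lib.H14AcDefs

variable {G : Type*} [Group G]

/-- `Ab ≤ G ⧸ M` lifts to an abelian subgroup of `G` whose order depends only on `|Ab|` -/
def LiftP (M : Subgroup G) [M.Normal] (Ab : Subgroup (G ⧸ M)) : Prop :=
  ∃ A : Subgroup G, IsMulCommutative ↥A ∧ A.map (QuotientGroup.mk' M) = Ab ∧
    ∀ p : ℕ, p.Prime → (Nat.card ↥A).factorization p =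
      if p ∣ Nat.card ↥Ab then (Nat.card ↥Ab).factorization p + (Nat.card M).factorization p else 0

/-- the `p`-subgroups of `A` not inside `M` are commutative and contain a Sylow `p`-subgroup of `M` -/
def HI (M A : Subgroup G) (p : ℕ) : Prop :=
  ∀ R : Subgroup G, R ≤ A → IsPGroup p R → ¬ R ≤ M →
    (∀ x ∈ R, ∀ y ∈ R, x * y = y * x) ∧ p ^ (Nat.card M).factorization p ∣ Nat.card ↥(R ⊓ M)

/-- the data of a generalized quaternion group of order at least 16 used in the proof: `c₀ = s₀²` has order 4, generates the only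
cyclic subgroup of order 4 consisting of squares, and `T` is generated by its elements of order 4 -/
structure QD (T : Subgroup G) (s₀ : G) : Prop where
  mem : s₀ ∈ T
  ord : orderOf (s₀ * s₀) = 4
  sq : ∀ s ∈ T, orderOf (s * s) = 4 → s * s ∈ Subgroup.zpowers (s₀ * s₀)
  gen : ∀ H : Subgroup G, (∀ t ∈ T, orderOf t = 4 → t ∈ H) → T ≤ H

/-- hypotheses on the subgroup `X` in the induction -/
structure XH (T : Subgroup G) (s₀ : G) (X : Subgroup G) : Prop where
  le : T ≤ X
  sol : Group.IsSolvable ↥X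
  odd : ¬ 2 ∣ T.relIndex X
  conj : ∀ x ∈ X, orderOf x = 4 → ∃ g ∈ X, g * x * g⁻¹ ∈ Subgroup.zpowers (s₀ * s₀)

end Cfsg.Agent.Lib.H14AcDefs
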