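import Mathlib
import Cfsg.Agent.Lib.H14AcDefs
import Cfsg.Agent.Lib.H14AbOrdP
import Cfsg.Agent.Lib.H14AbNoE
import Cfsg.Agent.Lib.H14AbSylInf

set_option autoImplicit false

/-! PROJECT 3912 = AC (row S3912, 3u), piece `CardM`. -/

namespace Cfsg.Agent.Lib.H14AcCardM

open Cfsg Cfsg.Agent.Lib.H14AbDefs Cfsg.Agent.Lib.H14AcDefs

theorem fac_M {G : Type*} [Group G] [Finite G] (hB : HB G) (M : Subgroup G) [M.Normal] (h2 : 2 ∣ Nat.card M)
    (T : Sylow 2 G) (hTM : ¬ (T : Subgroup G) ≤ M) (hT8 : Nat.card ↥(T : Subgroup G) = 8)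
    (hTc : ¬ IsCyclic ↥(T : Subgroup G)) (x : G) (hx : orderOf x = 4) : (Nat.card M).factorization 2 = 1 := by
  have : Fact (Nat.Prime 2) := ⟨Nat.prime_two⟩
  have hcard := H14AbSylInf.card_sylow_inf M T
  set v := (Nat.card M).factorization 2 with hv
  have hv1 : 0 < v := Nat.Prime.factorization_pos_of_dvd Nat.prime_two Nat.card_pos.ne' h2
  have hdvd : 2 ^ v ∣ 2 ^ 3 := by
    rw [← hcard]
    have := Subgroup.card_dvd_of_le (inf_le_left : (T : Subgroup G) ⊓ M ≤ T)
    rw [hT8] at this
    exact this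
  have hv3 : v ≤ 3 := (Nat.pow_dvd_pow_iff_le_right (by norm_num)).mp hdvd
  have hcases : v = 1 ∨ v = 2 ∨ v = 3 := by omega
  rcases hcases with h | h | h
  · exact h
  · exfalso
    rw [h] at hcard
    set W : Subgroup G := (T : Subgroup G) ⊓ M with hW
    have hWc : ∀ a b : ↥W, a * b = b * a := IsPGroup.commutative_of_card_eq_prime_sq hcard
    have hW1 : IsMulCommutative ↥W := ⟨⟨hWc⟩⟩
    by_cases hall : ∀ a ∈ W, a ^ 2 = 1
    · exact H14AbNoE.no_elem hB (p := 2) x (by rw [hx]; norm_num) W hW1 hall hcard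
    · push Not at hall
      obtain ⟨c, hcW, hc2⟩ := hall
      have hoc : orderOf c = 4 := by
        have h1 : orderOf (⟨c, hcW⟩ : ↥W) ∣ 2 ^ 2 := by rw [← hcard]; exact orderOf_dvd_natCard _
        rw [Subgroup.orderOf_mk] at h1
        obtain ⟨k, hk, hk'⟩ := (Nat.dvd_prime_pow Nat.prime_two).mp h1
        have : k = 0 ∨ k = 1 ∨ k = 2 := by omega
        rcases this with rfl | rfl | rfl
        · exfalso; apply hc2
          have : c = 1 := orderOf_eq_one_iff.mp (by simpa using hk')
          rw [this, one_pow]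
        · exfalso; apply hc2
          have := pow_orderOf_eq_one c
          rw [hk'] at this
          simpa using this
        · simpa using hk'
      have hcM : c ∈ M := hcW.2
      have h4 : ∀ t : G, orderOf t = 4 → t ∈ M := by
        intro t ht
        obtain ⟨g, hg⟩ := hB (Subgroup.zpowers c) (Subgroup.zpowers t) inferInstance inferInstance
          (by rw [Nat.card_zpowers, Nat.card_zpowers, hoc, ht])
        have ht' : t ∈ (Subgroup.zpowers c).map (MulAut.conj g).toMonoidHom := by
          rw [← hg]; exact Subgroup.mem_zpowers t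
        obtain ⟨y, hy, rfl⟩ := ht'
        have hyM : y ∈ M := (Subgroup.zpowers_le.mpr hcM) hy
        exact Subgroup.Normal.conj_mem inferInstance y hyM g
      apply hTM
      intro t ht
      have h1 : orderOf (⟨t, ht⟩ : ↥(T : Subgroup G)) ∣ 2 ^ 3 := by
        have := orderOf_dvd_natCard (⟨t, ht⟩ : ↥(T : Subgroup G))
        rw [hT8] at this
        exact this
      obtain ⟨k, hk, hk'⟩ := (Nat.dvd_prime_pow Nat.prime_two).mp h1
      have : k = 0 ∨ k = 1 ∨ k = 2 ∨ k = 3 := by omega
      rcases this with rfl | rfl | rfl | rfl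
      · rw [Subgroup.orderOf_mk] at hk'
        have : t = 1 := orderOf_eq_one_iff.mp (by simpa using hk')
        rw [this]; exact M.one_mem
      · rw [Subgroup.orderOf_mk] at hk'
        exact H14AbOrdP.mem_of_orderOf hB M h2 t (by simpa using hk')
      · rw [Subgroup.orderOf_mk] at hk'
        exact h4 t (by simpa using hk')
      · exfalso
        apply hTc
        apply isCyclic_of_orderOf_eq_card (⟨t, ht⟩ : ↥(T : Subgroup G))
        rw [hk', hT8]; norm_num
  · exfalso
    apply hTM
    rw [h] at hcard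
    have : (T : Subgroup G) ⊓ M = T := by
      apply Subgroup.eq_of_le_of_card_ge inf_le_left
      rw [hcard, hT8]; norm_num
    rw [← this]
    exact inf_le_right

end Cfsg.Agent.Lib.H14AcCardM
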