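import Mathlib
import Cfsg.Agent.Lib.H14AcDefs

set_option autoImplicit false

/-! PROJECT 3912 = AC (row S3912, 3u), piece `PrimeIdx` (est. 40m).  Keep file name, namespace, theorem name and statement; extra helper lemmas are fine.
Overview: notes/helper14/Ac/README.md.  Vocabulary: Lib/H14AbDefs (HB, MinS), Lib/H14AcDefs (LiftP, HI, QD, XH). -/

namespace Cfsg.Agent.Lib.H14AcPrimeIdx

open Cfsg Cfsg.Agent.Lib.H14AbDefs Cfsg.Agent.Lib.H14AcDefs
open scoped commutatorElement

/-- PURE MATHLIB.  `commutator X < ⊤` (`Group.IsSolvable.commutator_lt_top_of_nontrivial`), so the abelianization is a nontrivial finite abelian group; it has a subgroup of prime index (e.g. a maximal subgroup = coatom; in an abelian group every subgroup is normal and the simple abelian quotient has prime order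
`IsSimpleGroup.prime_card`; or induction), pull it back (`Subgroup.comap`, `Subgroup.index_comap_of_surjective`).
[Other route: a maximal normal subgroup `N`: `X ⧸ N` is simple and solvable, so of prime order.] -/
theorem exists_prime_index {X : Type*} [Group X] [Finite X] [Nontrivial X] (h : Group.IsSolvable X) :
    ∃ N : Subgroup X, N.Normal ∧ N.index.Prime := by
  have hlt : commutator X < ⊤ := Group.IsSolvable.commutator_lt_top_of_nontrivial X
  -- a maximal proper subgroup above the commutator subgroup
  obtain ⟨N, hN, hcN⟩ := (eq_top_or_exists_le_coatom (commutator X)).resolve_left hlt.ne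
  have hNn : N.Normal := by
    constructor
    intro n hn g
    have h1 : ⁅g, n⁆ ∈ N := hcN (by
      rw [commutator_def]
      exact Subgroup.commutator_mem_commutator (Subgroup.mem_top g) (Subgroup.mem_top n))
    have h2 : g * n * g⁻¹ = ⁅g, n⁆ * n := by simp [commutatorElement_def]
    rw [h2]
    exact N.mul_mem h1 hn
  refine ⟨N, hNn, ?_⟩
  haveI := hNn
  -- the quotient is a simple commutative group
  letI : CommGroup (X ⧸ N) :=
    { (inferInstance : Group (X ⧸ N)) with
      mul_comm := by
        intro a b
        induction a using QuotientGroup.induction_on with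
        | H a =>
          induction b using QuotientGroup.induction_on with
          | H b =>
            rw [← QuotientGroup.mk_mul, ← QuotientGroup.mk_mul, QuotientGroup.eq]
            have h1 : ⁅b⁻¹, a⁻¹⁆ ∈ N := hcN (by
              rw [commutator_def]
              exact Subgroup.commutator_mem_commutator (Subgroup.mem_top _) (Subgroup.mem_top _))
            have h2 : (a * b)⁻¹ * (b * a) = ⁅b⁻¹, a⁻¹⁆ := by
              simp [commutatorElement_def, mul_assoc]
            rw [h2]
            exact h1 }
  haveI : IsSimpleGroup (X ⧸ N) := by
    have hnt : Nontrivial (X ⧸ N) := by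
      rw [← Finite.one_lt_card_iff_nontrivial]
      have h1 : N.index ≠ 1 := fun h => hN.1 (Subgroup.index_eq_one.1 h)
      have h0 : N.index ≠ 0 := Subgroup.index_ne_zero_of_finite
      have : Nat.card (X ⧸ N) = N.index := rfl
      omega
    refine { exists_pair_ne := hnt.exists_pair_ne, eq_bot_or_eq_top_of_normal := ?_ }
    intro K _
    have hle : N ≤ K.comap (QuotientGroup.mk' N) := by
      intro n hn
      rw [Subgroup.mem_comap]
      have : QuotientGroup.mk' N n = 1 := (QuotientGroup.eq_one_iff n).2 hn
      rw [this]
      exact K.one_mem
    rcases hle.eq_or_lt with h | h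
    · left
      rw [eq_bot_iff]
      intro k hk
      obtain ⟨x, rfl⟩ := QuotientGroup.mk'_surjective N k
      have : x ∈ K.comap (QuotientGroup.mk' N) := hk
      rw [← h] at this
      exact Subgroup.mem_bot.2 ((QuotientGroup.eq_one_iff x).2 this)
    · right
      have htop := hN.2 _ h
      rw [eq_top_iff]
      intro k _
      obtain ⟨x, rfl⟩ := QuotientGroup.mk'_surjective N k
      have : x ∈ K.comap (QuotientGroup.mk' N) := by rw [htop]; exact Subgroup.mem_top x
      exact this
  have := IsSimpleGroup.prime_card (α := X ⧸ N)
  exact this

end Cfsg.Agent.Lib.H14AcPrimeIdx
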