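import Mathlib
import Cfsg.Agent.Lib.H14AcDefs

set_option autoImplicit false

/-! PROJECT 3912 = AC (row S3912, 3u), piece `QStep2` (est. 45m).  Keep file name, namespace, theorem name and statement; extra helper lemmas are fine.
Overview: notes/helper14/Ac/README.md.  Vocabulary: Lib/H14AbDefs (HB, MinS), Lib/H14AcDefs (LiftP, HI, QD, XH). -/

namespace Cfsg.Agent.Lib.H14AcQStep2

open Cfsg Cfsg.Agent.Lib.H14AbDefs Cfsg.Agent.Lib.H14AcDefs

/-- Index `2`.  `c₀ = s₀ * s₀ ∈ X₁` (the square of an element of `X` lies in a subgroup of index `2` normal in `X`: work in `↥X` with `X₁.subgroupOf X`, `Subgroup.pow_index_mem` or `Subgroup.sq_mem_of_index_two`/`mul_self_mem_of_index_two`).  Every `t ∈ T` of order `4`: `g t g⁻¹ ∈ zpowers c₀ ≤ X₁` for some `g ∈ X` (`hX.conj`), so `t ∈ X₁` (`hn` with `g⁻¹`).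
`hQ.gen X₁` gives `T ≤ X₁`, so `T.relIndex X = T.relIndex X₁ * X₁.relIndex X` (`Subgroup.relIndex_mul_relIndex`) is even: contradiction with `hX.odd`. -/
theorem step_two {G : Type*} [Group G] [Finite G] {T : Subgroup G} {s₀ : G} (hQ : QD T s₀) {X X₁ : Subgroup G}
    (hX : XH T s₀ X) (hle : X₁ ≤ X) (hn : ∀ g ∈ X, ∀ x ∈ X₁, g * x * g⁻¹ ∈ X₁) (hi : X₁.relIndex X = 2) :
    False := by
  have hsq : ∀ g ∈ X, g * g ∈ X₁ := by
    intro g hg
    have hidx : (X₁.subgroupOf X).index = 2 := hi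
    have := Subgroup.mul_self_mem_of_index_two hidx (⟨g, hg⟩ : ↥X)
    exact Subgroup.mem_subgroupOf.1 this
  have hc0 : s₀ * s₀ ∈ X₁ := hsq s₀ (hX.le hQ.mem)
  have hz : Subgroup.zpowers (s₀ * s₀) ≤ X₁ := Subgroup.zpowers_le.2 hc0
  have hT : T ≤ X₁ := by
    apply hQ.gen
    intro t ht hot
    obtain ⟨g, hg, hgt⟩ := hX.conj t (hX.le ht) hot
    have := hn g⁻¹ (X.inv_mem hg) _ (hz hgt)
    simpa [mul_assoc] using this
  apply hX.odd
  rw [← Subgroup.relIndex_mul_relIndex T X₁ X hT hle, hi]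
  exact Dvd.intro_left _ rfl

end Cfsg.Agent.Lib.H14AcQStep2
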