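import Mathlib
import Cfsg.Agent.Lib.H14AcDefs

set_option autoImplicit false

/-! PROJECT 3912 = AC (row S3912, 3u), piece `QStepOdd`. -/

namespace Cfsg.Agent.Lib.H14AcQStepOdd

open Cfsg Cfsg.Agent.Lib.H14AbDefs Cfsg.Agent.Lib.H14AcDefs
open Pointwise

/-- Frattini-type statement: every `g ∈ X` can be corrected by an element of `X₁` to an element mapping `T` into `T`. -/
theorem frattini {G : Type*} [Group G] [Finite G] {T : Subgroup G} (hT : IsPGroup 2 T)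
    {X X₁ : Subgroup G} (hTX₁ : T ≤ X₁) (hodd : ¬ 2 ∣ T.relIndex X₁)
    (hn : ∀ g ∈ X, ∀ x ∈ X₁, g * x * g⁻¹ ∈ X₁) (g : G) (hg : g ∈ X) :
    ∃ h ∈ X₁, ∀ t ∈ T, (h * g⁻¹) * t * (h * g⁻¹)⁻¹ ∈ T := by
  have : Fact (Nat.Prime 2) := ⟨Nat.prime_two⟩
  have hP : IsPGroup 2 (T.subgroupOf X₁) := hT.comap_subtype
  let P : Sylow 2 ↥X₁ := hP.toSylow hodd
  have hPc : (P : Subgroup ↥X₁) = T.subgroupOf X₁ := rfl
  let T' : Subgroup G := T.map (MulAut.conj g⁻¹).toMonoidHom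
  have hT' : IsPGroup 2 T' := hT.map _
  have hP' : IsPGroup 2 (T'.subgroupOf X₁) := hT'.comap_subtype
  obtain ⟨Q, hQ⟩ := hP'.exists_le_sylow
  obtain ⟨h, hh⟩ := MulAction.exists_smul_eq ↥X₁ Q P
  have hQP : MulAut.conj h • (Q : Subgroup ↥X₁) = (P : Subgroup ↥X₁) := by
    rw [← Sylow.coe_subgroup_smul, hh]
  refine ⟨h.1, h.2, ?_⟩
  intro t ht
  have ht1 : g⁻¹ * t * g⁻¹⁻¹ ∈ X₁ := hn g⁻¹ (X.inv_mem hg) t (hTX₁ ht)
  have ht2 : (⟨g⁻¹ * t * g⁻¹⁻¹, ht1⟩ : ↥X₁) ∈ T'.subgroupOf X₁ := by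
    rw [Subgroup.mem_subgroupOf]
    exact ⟨t, ht, rfl⟩
  have ht3 : MulAut.conj h • (⟨g⁻¹ * t * g⁻¹⁻¹, ht1⟩ : ↥X₁) ∈ MulAut.conj h • (Q : Subgroup ↥X₁) :=
    Subgroup.smul_mem_pointwise_smul _ _ _ (hQ ht2)
  rw [hQP, hPc, Subgroup.mem_subgroupOf] at ht3
  have e : ((MulAut.conj h • (⟨g⁻¹ * t * g⁻¹⁻¹, ht1⟩ : ↥X₁) : ↥X₁) : G)
      = (h.1 * g⁻¹) * t * (h.1 * g⁻¹)⁻¹ := by
    simp only [MulAut.smul_def, MulAut.conj_apply, Subgroup.coe_mul, Subgroup.coe_inv]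
    group
  rw [e] at ht3
  exact ht3

theorem step_odd {G : Type*} [Group G] [Finite G] {T : Subgroup G} {s₀ : G} (hT : IsPGroup 2 T) (hQ : QD T s₀)
    {X X₁ : Subgroup G} (hX : XH T s₀ X) (hle : X₁ ≤ X) (hn : ∀ g ∈ X, ∀ x ∈ X₁, g * x * g⁻¹ ∈ X₁)
    (q : ℕ) (hq : q.Prime) (hq2 : q ≠ 2) (hi : X₁.relIndex X = q) : XH T s₀ X₁ := by
  have hTX₁ : T ≤ X₁ := by
    intro t ht
    have hN : (X₁.subgroupOf X).Normal := by
      constructor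
      intro n hn' g
      rw [Subgroup.mem_subgroupOf] at hn' ⊢
      exact hn g.1 g.2 n.1 hn'
    have h1 : (⟨t, hX.le ht⟩ : ↥X) ^ (X₁.subgroupOf X).index ∈ X₁.subgroupOf X :=
      Subgroup.pow_index_mem _ _
    have h2 : t ^ q ∈ X₁ := by
      rw [Subgroup.mem_subgroupOf] at h1
      have : (X₁.subgroupOf X).index = q := hi
      rw [this] at h1
      exact h1
    obtain ⟨k, hk⟩ := hT ⟨t, ht⟩
    have hk' : t ^ 2 ^ k = 1 := congrArg Subtype.val hk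
    have hcop : q.Coprime (orderOf t) := by
      have hd : orderOf t ∣ 2 ^ k := orderOf_dvd_of_pow_eq_one hk'
      apply Nat.Coprime.coprime_dvd_right hd
      apply Nat.Coprime.pow_right
      exact (Nat.coprime_primes hq Nat.prime_two).mpr hq2
    obtain ⟨m, hm⟩ := exists_pow_eq_self_of_coprime hcop
    rw [← hm]
    exact X₁.pow_mem h2 m
  have hodd : ¬ 2 ∣ T.relIndex X₁ := by
    intro h
    apply hX.odd
    rw [← Subgroup.relIndex_mul_relIndex T X₁ X hTX₁ hle]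
    exact Dvd.dvd.mul_right h _
  refine ⟨hTX₁, ?_, hodd, ?_⟩
  · have := hX.sol
    exact solvable_of_solvable_injective (Subgroup.inclusion_injective hle)
  · intro x hx hx4
    obtain ⟨g, hg, hgx⟩ := hX.conj x (hle hx) hx4
    obtain ⟨h, hh, hm⟩ := frattini hT hTX₁ hodd hn g hg
    refine ⟨h, hh, ?_⟩
    obtain ⟨k, hk⟩ := Subgroup.mem_zpowers_iff.mp hgx
    have e1 : h * x * h⁻¹ = (h * g⁻¹) * (g * x * g⁻¹) * (h * g⁻¹)⁻¹ := by group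
    have e2 : (h * g⁻¹) * (s₀ * s₀) * (h * g⁻¹)⁻¹
        = ((h * g⁻¹) * s₀ * (h * g⁻¹)⁻¹) * ((h * g⁻¹) * s₀ * (h * g⁻¹)⁻¹) := by group
    have h3 : (h * g⁻¹) * (s₀ * s₀) * (h * g⁻¹)⁻¹ ∈ Subgroup.zpowers (s₀ * s₀) := by
      rw [e2]
      apply hQ.sq _ (hm s₀ hQ.mem)
      rw [← e2]
      have : orderOf ((h * g⁻¹) * (s₀ * s₀) * (h * g⁻¹)⁻¹) = orderOf (s₀ * s₀) :=
        orderOf_injective (MulAut.conj (h * g⁻¹)).toMonoidHom (MulAut.conj (h * g⁻¹)).injective _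
      rw [this, hQ.ord]
    rw [e1, ← hk, ← conj_zpow]
    exact Subgroup.zpow_mem _ h3 k

end Cfsg.Agent.Lib.H14AcQStepOdd
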