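import Mathlib
import Cfsg.Agent.Lib.H14AcDefs
import Cfsg.Agent.Lib.H14AcPrimeIdx
import Cfsg.Agent.Lib.H14AcQStep2
import Cfsg.Agent.Lib.H14AcQStepOdd

set_option autoImplicit false

/-! PROJECT 3912 = AC (row S3912, 3u), piece `QInd` (est. 40m).  Keep file name, namespace, theorem name and statement; extra helper lemmas are fine.
Overview: notes/helper14/Ac/README.md.  Vocabulary: Lib/H14AbDefs (HB, MinS), Lib/H14AcDefs (LiftP, HI, QD, XH). -/

namespace Cfsg.Agent.Lib.H14AcQInd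

open Cfsg Cfsg.Agent.Lib.H14AbDefs Cfsg.Agent.Lib.H14AcDefs

/-- Strong induction on `Nat.card X`.  `↥X` is nontrivial (`s₀ * s₀ ∈ X` has order `4`), solvable: `H14AcPrimeIdx.exists_prime_index` gives `N : Subgroup ↥X` normal of prime index `q`; `X₁ := N.map X.subtype ≤ X`, `X₁.relIndex X = q`
(`Subgroup.relIndex`, `Subgroup.subgroupOf_map_subtype`/`Subgroup.comap_map_eq_self_of_injective`), normalized by `X`, `Nat.card X₁ < Nat.card X`.  `q = 2`: `H14AcQStep2.step_two`.  `q ≠ 2`: `H14AcQStepOdd.step_odd` and the induction hypothesis. -/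
theorem no_X_aux {G : Type*} [Group G] [Finite G] {T : Subgroup G} {s₀ : G} (hT : IsPGroup 2 T)
    (hQ : QD T s₀) : ∀ (n : ℕ) (X : Subgroup G), Nat.card X = n → XH T s₀ X → False := by
  intro n
  induction n using Nat.strong_induction_on with
  | _ n ih =>
    intro X hn hX
    have hs : s₀ * s₀ ∈ X := hX.le (T.mul_mem hQ.mem hQ.mem)
    have hnt : Nontrivial ↥X := by
      refine ⟨⟨⟨s₀ * s₀, hs⟩, 1, ?_⟩⟩
      intro h
      have h1 : s₀ * s₀ = 1 := congrArg Subtype.val h
      have h2 := hQ.ord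
      rw [h1, orderOf_one] at h2
      norm_num at h2
    obtain ⟨N, hN, hNp⟩ := Cfsg.Agent.Lib.H14AcPrimeIdx.exists_prime_index hX.sol
    set X₁ : Subgroup G := N.map X.subtype with hX₁
    have hle : X₁ ≤ X := Subgroup.map_subtype_le N
    have hi : X₁.relIndex X = N.index := by
      unfold Subgroup.relIndex
      rw [hX₁, Subgroup.subgroupOf, Subgroup.comap_map_eq_self_of_injective X.subtype_injective]
    have hnorm : ∀ g ∈ X, ∀ x ∈ X₁, g * x * g⁻¹ ∈ X₁ := by
      rintro g hg _ ⟨u, hu, rfl⟩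
      exact ⟨⟨g, hg⟩ * u * ⟨g, hg⟩⁻¹, hN.conj_mem u hu ⟨g, hg⟩, rfl⟩
    have hlt : Nat.card X₁ < Nat.card X := by
      have h1 := N.card_mul_index
      have h4 : Nat.card X₁ = Nat.card N := by
        rw [hX₁]; exact Subgroup.card_map_of_injective X.subtype_injective
      have h2 := hNp.two_le
      have h3 : 0 < Nat.card X₁ := Nat.card_pos
      rw [← h4] at h1
      nlinarith
    by_cases hq : N.index = 2
    · exact Cfsg.Agent.Lib.H14AcQStep2.step_two hQ hX hle hnorm (hi.trans hq)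
    · exact ih _ (hn ▸ hlt) X₁ rfl
        (Cfsg.Agent.Lib.H14AcQStepOdd.step_odd hT hQ hX hle hnorm N.index hNp hq hi)

theorem no_X {G : Type*} [Group G] [Finite G] {T : Subgroup G} {s₀ : G} (hT : IsPGroup 2 T) (hQ : QD T s₀)
    (X : Subgroup G) (hX : XH T s₀ X) : False :=
  no_X_aux hT hQ _ X rfl hX

end Cfsg.Agent.Lib.H14AcQInd
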