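import Mathlib
import Cfsg.Agent.Lib.H14AcDefs

set_option autoImplicit false

/-! PROJECT 3912 = AC (row S3912, 3u), piece `QFacts`. -/

namespace Cfsg.Agent.Lib.H14AcQFacts

open Cfsg Cfsg.Agent.Lib.H14AbDefs Cfsg.Agent.Lib.H14AcDefs

open QuaternionGroup in
private theorem a_pow {N : ℕ} (j : ZMod (2 * N)) (k : ℕ) :
    (a j : QuaternionGroup N) ^ k = a ((k : ZMod (2 * N)) * j) := by
  induction k with
  | zero => simp
  | succ k ih =>
    rw [pow_succ, ih, a_mul_a]
    congr 1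
    push_cast
    ring

open QuaternionGroup in
/-- PURE MATHLIB facts on generalized quaternion groups of order at least 16. -/
theorem qfacts (n : ℕ) (hn : 2 ≤ n) : ∃ s₀ : QuaternionGroup (2 ^ n), orderOf (s₀ * s₀) = 4 ∧
    (∀ s : QuaternionGroup (2 ^ n), orderOf (s * s) = 4 → s * s ∈ Subgroup.zpowers (s₀ * s₀)) ∧
    (∀ H : Subgroup (QuaternionGroup (2 ^ n)), (∀ t, orderOf t = 4 → t ∈ H) → H = ⊤) := by
  obtain ⟨m, rfl⟩ : ∃ m, n = m + 2 := ⟨n - 2, by omega⟩
  haveI : NeZero (2 ^ (m + 2)) := ⟨by positivity⟩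
  have hN : 2 * 2 ^ (m + 2) = 8 * 2 ^ m := by ring
  have hpos : 0 < 2 ^ m := by positivity
  refine ⟨a ((2 ^ m : ℕ) : ZMod (2 * 2 ^ (m + 2))), ?_, ?_, ?_⟩
  · rw [a_mul_a, orderOf_a]
    have hval : (((2 ^ m : ℕ) : ZMod (2 * 2 ^ (m + 2))) + ((2 ^ m : ℕ) : ZMod (2 * 2 ^ (m + 2)))).val
        = 2 * 2 ^ m := by
      rw [← Nat.cast_add, ZMod.val_natCast, Nat.mod_eq_of_lt]
      · ring
      · rw [hN]; omega
    rw [hval, hN]
    have hg : Nat.gcd (8 * 2 ^ m) (2 * 2 ^ m) = 2 * 2 ^ m := by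
      apply Nat.gcd_eq_right
      exact ⟨4, by ring⟩
    rw [hg]
    have : 8 * 2 ^ m = 4 * (2 * 2 ^ m) := by ring
    rw [this]
    exact Nat.mul_div_cancel _ (by positivity)
  · intro s hs
    rcases s with i | i
    · -- s = a i
      have h4 : (a i * a i : QuaternionGroup (2 ^ (m + 2))) ^ 4 = 1 := by
        rw [← hs]; exact pow_orderOf_eq_one _
      rw [a_mul_a, a_pow, one_def] at h4
      have h5 : ((4 : ℕ) : ZMod (2 * 2 ^ (m + 2))) * (i + i) = 0 := by
        injection h4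
      have h6 : ((8 * i.val : ℕ) : ZMod (2 * 2 ^ (m + 2))) = 0 := by
        push_cast
        rw [ZMod.natCast_zmod_val]
        have : (8 : ZMod (2 * 2 ^ (m + 2))) * i = ((4 : ℕ) : ZMod (2 * 2 ^ (m + 2))) * (i + i) := by
          push_cast; ring
        rw [this, h5]
      rw [ZMod.natCast_eq_zero_iff] at h6
      have h6' : 8 * 2 ^ m ∣ 8 * i.val := hN ▸ h6
      have h7 : 2 ^ m ∣ i.val := Nat.dvd_of_mul_dvd_mul_left (by norm_num) h6'
      obtain ⟨k, hk⟩ := h7
      rw [Subgroup.mem_zpowers_iff]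
      refine ⟨(k : ℤ), ?_⟩
      rw [zpow_natCast, a_mul_a, a_mul_a, a_pow]
      congr 1
      have hi : i = ((2 ^ m * k : ℕ) : ZMod (2 * 2 ^ (m + 2))) := by
        rw [← hk, ZMod.natCast_zmod_val]
      rw [hi]
      push_cast
      ring
    · -- s = xa i
      exfalso
      have h2 : (xa i * xa i : QuaternionGroup (2 ^ (m + 2))) ^ 2 = 1 := by
        rw [← sq, ← pow_mul]
        exact xa_pow_four i
      have := orderOf_dvd_of_pow_eq_one h2
      rw [hs] at this
      omega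
  · intro H hH
    rw [eq_top_iff]
    intro g _
    have hxa : ∀ i, (xa i : QuaternionGroup (2 ^ (m + 2))) ∈ H := fun i => hH _ (orderOf_xa i)
    rcases g with k | k
    · have : (a k : QuaternionGroup (2 ^ (m + 2)))
          = xa 0 * xa (k - ((2 ^ (m + 2) : ℕ) : ZMod (2 * 2 ^ (m + 2)))) := by
        rw [xa_mul_xa]
        congr 1
        ring
      rw [this]
      exact H.mul_mem (hxa _) (hxa _)
    · exact hxa k

end Cfsg.Agent.Lib.H14AcQFacts
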