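import Mathlib
import Cfsg.Agent.Lib.H14AcDefs
import Cfsg.Agent.Lib.H14AcQFacts

set_option autoImplicit false

/-! PROJECT 3912 = AC (row S3912, 3u), piece `QTr` (est. 35m).  Keep file name, namespace, theorem name and statement; extra helper lemmas are fine.
Overview: notes/helper14/Ac/README.md.  Vocabulary: Lib/H14AbDefs (HB, MinS), Lib/H14AcDefs (LiftP, HI, QD, XH). -/

namespace Cfsg.Agent.Lib.H14AcQTr

open Cfsg Cfsg.Agent.Lib.H14AbDefs Cfsg.Agent.Lib.H14AcDefs

/-- Transport `H14AcQFacts.qfacts` along `e` : `s₀ := ((e.symm s) : G)`; `orderOf` is preserved by `e`, `e.symm` (`MulEquiv.orderOf_eq`) and by the coercion (`Subgroup.orderOf_coe`).  `gen`: apply the third fact to `(H.subgroupOf T).map e.toMonoidHom`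
(or `(H.subgroupOf T).comap e.symm.toMonoidHom`). -/
theorem qd_of_equiv {G : Type*} [Group G] (T : Subgroup G) (n : ℕ) (hn : 2 ≤ n)
    (e : ↥T ≃* QuaternionGroup (2 ^ n)) : ∃ s₀ : G, QD T s₀ := by
  obtain ⟨s, h1, h2, h3⟩ := H14AcQFacts.qfacts n hn
  have hord : ∀ t : ↥T, orderOf (t : G) = orderOf (e t) := fun t => by
    rw [Subgroup.orderOf_coe, MulEquiv.orderOf_eq]
  refine ⟨((e.symm s : ↥T) : G), (e.symm s).2, ?_, ?_, ?_⟩
  · have := hord (e.symm s * e.symm s)
    rw [map_mul, e.apply_symm_apply, h1] at this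
    exact this
  · intro t ht hot
    have h4 := hord (⟨t, ht⟩ * ⟨t, ht⟩)
    rw [map_mul] at h4
    have h5 : orderOf (e ⟨t, ht⟩ * e ⟨t, ht⟩) = 4 := by rw [← h4]; exact hot
    obtain ⟨k, hk⟩ := Subgroup.mem_zpowers_iff.1 (h2 _ h5)
    refine Subgroup.mem_zpowers_iff.2 ⟨k, ?_⟩
    have h6 : (e.symm s * e.symm s) ^ k = (⟨t, ht⟩ * ⟨t, ht⟩ : ↥T) := by
      apply e.injective
      rw [map_zpow, map_mul, map_mul, e.apply_symm_apply, hk]
    have h7 := congrArg Subtype.val h6
    simpa using h7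
  · intro H hH
    have h8 : (H.subgroupOf T).map e.toMonoidHom = ⊤ := by
      apply h3
      intro t ht
      refine ⟨e.symm t, ?_, by simp⟩
      apply Subgroup.mem_subgroupOf.2
      apply hH _ (e.symm t).2
      rw [hord, e.apply_symm_apply, ht]
    intro t ht
    have h9 : e ⟨t, ht⟩ ∈ (H.subgroupOf T).map e.toMonoidHom := by rw [h8]; exact Subgroup.mem_top _
    obtain ⟨z, hz, hze⟩ := h9
    have : z = ⟨t, ht⟩ := e.injective hze
    rw [this] at hz
    exact Subgroup.mem_subgroupOf.1 hz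

end Cfsg.Agent.Lib.H14AcQTr
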