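import Mathlib
import Cfsg.Agent.Lib.H14AcDefs
import Cfsg.Agent.Lib.H14AbNoE
import Cfsg.Agent.Lib.H53PCCountA

set_option autoImplicit false

/-! PROJECT 3912 = AC (row S3912, 3u), piece `Uniq`. -/

namespace Cfsg.Agent.Lib.H14AcUniq

open Cfsg Cfsg.Agent.Lib.H14AbDefs Cfsg.Agent.Lib.H14AcDefs

private theorem gen_of_card_two {X : Type*} [Group X] [Finite X] (H : Subgroup X)
    (hH : Nat.card H = 2) : ∃ h : X, orderOf h = 2 ∧ H = Subgroup.zpowers h := by
  haveI : Fact (Nat.Prime 2) := ⟨Nat.prime_two⟩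
  obtain ⟨h, hh⟩ := exists_prime_orderOf_dvd_card' (G := H) 2 (by rw [hH])
  have h2 : orderOf (h : X) = 2 := by rw [Subgroup.orderOf_coe, hh]
  refine ⟨h, h2, ?_⟩
  symm
  apply Subgroup.eq_of_le_of_card_ge
  · rw [Subgroup.zpowers_le]; exact h.2
  · rw [Nat.card_zpowers, h2, hH]

private theorem four {G : Type*} [Group G] [Finite G] (z u : G) (hz : orderOf z = 2)
    (hu : orderOf u = 2) (hzu : z * u = u * z) (hne : u ≠ z) :
    ∃ W : Subgroup G, IsMulCommutative ↥W ∧ (∀ a ∈ W, a ^ 2 = 1) ∧ Nat.card W = 2 ^ 2 := by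
  classical
  have hz2 : z ^ 2 = 1 := by rw [← hz]; exact pow_orderOf_eq_one z
  have hu2 : u ^ 2 = 1 := by rw [← hu]; exact pow_orderOf_eq_one u
  obtain ⟨hle, hexp⟩ := H53PCCountA.card_closure_pair_le (r := 2) (by norm_num) hzu hz2 hu2
  refine ⟨Subgroup.closure {z, u}, ?_, hexp, ?_⟩
  · have hcomm : ∀ x ∈ ({z, u} : Set G), ∀ y ∈ ({z, u} : Set G), x * y = y * x := by
      rintro x (rfl | rfl) y (rfl | rfl)
      · rfl
      · exact hzu
      · exact hzu.symm
      · rfl
    exact ⟨⟨fun x y => (Subgroup.closureCommGroupOfComm hcomm).mul_comm x y⟩⟩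
  · have hzW : z ∈ Subgroup.closure ({z, u} : Set G) := Subgroup.subset_closure (by simp)
    have huW : u ∈ Subgroup.closure ({z, u} : Set G) := Subgroup.subset_closure (by simp)
    have hZle : Subgroup.zpowers z ≤ Subgroup.closure ({z, u} : Set G) := by
      rw [Subgroup.zpowers_le]; exact hzW
    have hcz : Nat.card (Subgroup.zpowers z) = 2 := by rw [Nat.card_zpowers, hz]
    have hdvd : 2 ∣ Nat.card (Subgroup.closure ({z, u} : Set G)) := by
      rw [← hcz]; exact Subgroup.card_dvd_of_le hZle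
    have hne2 : Nat.card (Subgroup.closure ({z, u} : Set G)) ≠ 2 := by
      intro h2
      have heq : Subgroup.zpowers z = Subgroup.closure ({z, u} : Set G) :=
        Subgroup.eq_of_le_of_card_ge hZle (by rw [h2, hcz])
      have hu' : u ∈ Subgroup.zpowers z := by rw [heq]; exact huW
      rw [mem_zpowers_iff_mem_range_orderOf, hz] at hu'
      simp only [Finset.mem_image, Finset.mem_range] at hu'
      obtain ⟨i, hi, hiu⟩ := hu'
      interval_cases i
      · rw [pow_zero] at hiu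
        rw [← hiu, orderOf_one] at hu
        omega
      · rw [pow_one] at hiu
        exact hne hiu.symm
    have hpos : 0 < Nat.card (Subgroup.closure ({z, u} : Set G)) := Nat.card_pos
    obtain ⟨c, hc⟩ := hdvd
    have : c ≤ 2 := by omega
    interval_cases c <;> omega

/-- unique involution -/
theorem uniq {G : Type*} [Group G] [Finite G] (hB : HB G) (x : G) (hx : orderOf x = 4) (T : Subgroup G)
    (hT : IsPGroup 2 T) : ∀ H K : Subgroup ↥T, Nat.card H = 2 → Nat.card K = 2 → H = K := by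
  intro H K hH hK
  by_contra hHK
  haveI : Fact (Nat.Prime 2) := ⟨Nat.prime_two⟩
  obtain ⟨h, hh, rfl⟩ := gen_of_card_two H hH
  obtain ⟨k, hk, rfl⟩ := gen_of_card_two K hK
  haveI : Nontrivial ↥T := ⟨⟨h, 1, fun h1 => by rw [h1, orderOf_one] at hh; omega⟩⟩
  haveI := hT.center_nontrivial
  obtain ⟨e, he⟩ := IsPGroup.iff_card.1 (hT.to_subgroup (Subgroup.center ↥T))
  have he0 : e ≠ 0 := by
    rintro rfl
    have h1 : 1 < Nat.card (Subgroup.center ↥T) := Finite.one_lt_card
    rw [he] at h1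
    omega
  obtain ⟨z, hz⟩ := exists_prime_orderOf_dvd_card' (G := Subgroup.center ↥T) 2
    (by rw [he]; exact dvd_pow_self 2 he0)
  have hz2 : orderOf (z : ↥T) = 2 := by rw [Subgroup.orderOf_coe, hz]
  have hzc : ∀ t : ↥T, (z : ↥T) * t = t * z := fun t => ((Subgroup.mem_center_iff.1 z.2) t).symm
  obtain ⟨u, hu, hune⟩ : ∃ u : ↥T, orderOf u = 2 ∧ u ≠ (z : ↥T) := by
    by_cases hhz : h = (z : ↥T)
    · refine ⟨k, hk, fun hkz => hHK ?_⟩
      rw [hhz, hkz]
    · exact ⟨h, hh, hhz⟩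
  obtain ⟨W, hW1, hW2, hW3⟩ := four ((z : ↥T) : G) (u : G)
    (by rw [Subgroup.orderOf_coe, hz2]) (by rw [Subgroup.orderOf_coe, hu])
    (by exact_mod_cast congrArg Subtype.val (hzc u))
    (fun hcon => hune (Subtype.ext hcon))
  exact H14AbNoE.no_elem hB (p := 2) x (by rw [hx]; norm_num) W hW1 hW2 hW3

end Cfsg.Agent.Lib.H14AcUniq
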