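import Mathlib
import Cfsg.Agent.Lib.H14AcDefs
import Cfsg.Agent.S0016
import Cfsg.Agent.Lib.H14AcUniq
import Cfsg.Agent.Lib.H14AcQTr
import Cfsg.Agent.Lib.H14AcQInd

set_option autoImplicit false

/-! PROJECT 3912 = AC (row S3912, 3u), piece `CardT` (est. 45m).  Keep file name, namespace, theorem name and statement; extra helper lemmas are fine.
Overview: notes/helper14/Ac/README.md.  Vocabulary: Lib/H14AbDefs (HB, MinS), Lib/H14AcDefs (LiftP, HI, QD, XH). -/

namespace Cfsg.Agent.Lib.H14AcCardT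

open Cfsg Cfsg.Agent.Lib.H14AbDefs Cfsg.Agent.Lib.H14AcDefs

/-- `Cfsg.Agent.S0016.result 2 T.isPGroup' (H14AcUniq.uniq hB x hx T T.isPGroup')` : `↥T` is cyclic (excluded) or `↥T ≃* QuaternionGroup (2 ^ n)`.  `n = 0`: `QuaternionGroup 1` is cyclic (`QuaternionGroup.quaternionGroup_one_isCyclic`), so `T` is cyclic.  `n = 1`: `Nat.card = 4 * 2 = 8` (`QuaternionGroup.card`, `Nat.card_congr e.toEquiv`).
`n ≥ 2`: `H14AcQTr.qd_of_equiv` gives `QD T s₀`; `XH T s₀ ⊤`: solvable (`⊤ ≃* G`: `Subgroup.topEquiv`), `T.relIndex ⊤ = T.index` odd (`Sylow.not_dvd_index`), conjugacy: `zpowers y` and `zpowers (s₀ * s₀)` are commutative of order `4`, `hB` gives `g` with `zpowers (s₀*s₀) = (zpowers y).map (conj g)`.  `H14AcQInd.no_X`. -/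
theorem card_T {G : Type*} [Group G] [Finite G] (hB : HB G) (hsol : Group.IsSolvable G) (T : Sylow 2 G) (x : G)
    (hx : orderOf x = 4) (hTc : ¬ IsCyclic ↥(T : Subgroup G)) : Nat.card ↥(T : Subgroup G) = 8 := by
  have : Fact (Nat.Prime 2) := ⟨Nat.prime_two⟩
  rcases Cfsg.Agent.S0016.result 2 T.isPGroup' (H14AcUniq.uniq hB x hx T T.isPGroup') with h | ⟨-, n, ⟨e⟩⟩
  · exact absurd h hTc
  · rcases Nat.lt_or_ge n 2 with hn | hn
    · interval_cases n
      · exfalso
        apply hTc
        have : IsCyclic (QuaternionGroup (2 ^ 0)) := by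
          rw [pow_zero]; exact QuaternionGroup.quaternionGroup_one_isCyclic
        exact isCyclic_of_surjective e.symm e.symm.surjective
      · rw [Nat.card_congr e.toEquiv]
        have : NeZero (2 ^ 1) := ⟨by norm_num⟩
        rw [Nat.card_eq_fintype_card, QuaternionGroup.card]
        norm_num
    · exfalso
      obtain ⟨s₀, hQ⟩ := H14AcQTr.qd_of_equiv (T : Subgroup G) n hn e
      refine H14AcQInd.no_X T.isPGroup' hQ ⊤ ⟨le_top, ?_, ?_, ?_⟩
      · exact Group.isSolvable_of_isSolvable_injective (f := (⊤ : Subgroup G).subtype) (Subgroup.subtype_injective _)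
      · rw [Subgroup.relIndex_top_right]
        exact T.not_dvd_index
      · intro y _ hy
        have hc1 : Nat.card (Subgroup.zpowers y) = 4 := by rw [Nat.card_zpowers, hy]
        have hc2 : Nat.card (Subgroup.zpowers (s₀ * s₀)) = 4 := by rw [Nat.card_zpowers, hQ.ord]
        obtain ⟨g, hg⟩ := hB (Subgroup.zpowers y) (Subgroup.zpowers (s₀ * s₀)) inferInstance inferInstance
          (by rw [hc1, hc2])
        refine ⟨g, Subgroup.mem_top g, ?_⟩
        rw [hg]
        exact ⟨y, Subgroup.mem_zpowers y, rfl⟩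

end Cfsg.Agent.Lib.H14AcCardT
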