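import Mathlib
import Cfsg.Agent.Lib.H14AcDefs

set_option autoImplicit false

/-! PROJECT 3912 = AC (row S3912, 3u), piece `Dec` (est. 45m).  Keep file name, namespace, theorem name and statement; extra helper lemmas are fine.
Overview: notes/helper14/Ac/README.md.  Vocabulary: Lib/H14AbDefs (HB, MinS), Lib/H14AcDefs (LiftP, HI, QD, XH). -/

namespace Cfsg.Agent.Lib.H14AcDec

open Cfsg Cfsg.Agent.Lib.H14AbDefs Cfsg.Agent.Lib.H14AcDefs

/-- PURE MATHLIB.  In the commutative group `↥A` take `P : Sylow 2 ↥A` (normal) and a complement `K` (`Subgroup.exists_left_complement'_of_coprime`, `Sylow.card_coprime_index`); `A₂ := P.map A.subtype`, `A' := K.map A.subtype`.  `|P| = 2 ^ v_2|A|` (`Sylow.card_eq_multiplicity`), `|K| = P.index` is odd and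
`|P| * |K| = |A|` (`Subgroup.IsComplement'.card_mul`), `P ⊔ K = ⊤` (`IsComplement'.sup_eq_top`, `Subgroup.map_sup`). -/
theorem exists_dec {Γ : Type*} [Group Γ] [Finite Γ] (A : Subgroup Γ) (hA : IsMulCommutative ↥A) :
    ∃ A₂ A' : Subgroup Γ, A₂ ⊔ A' = A ∧ Nat.card ↥A₂ = 2 ^ (Nat.card ↥A).factorization 2 ∧
      Nat.card ↥A₂ * Nat.card ↥A' = Nat.card ↥A ∧ Odd (Nat.card ↥A') := by
  have : Fact (Nat.Prime 2) := ⟨Nat.prime_two⟩
  obtain ⟨P⟩ : Nonempty (Sylow 2 A) := inferInstance
  have hPn : (P : Subgroup A).Normal := by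
    constructor
    intro n hn g
    have e : g * n * g⁻¹ = n := by rw [hA.is_comm.comm g n, mul_assoc, mul_inv_cancel, mul_one]
    rw [e]
    exact hn
  obtain ⟨K, hK⟩ := Subgroup.exists_right_complement'_of_coprime P.card_coprime_index
  refine ⟨(P : Subgroup A).map A.subtype, K.map A.subtype, ?_, ?_, ?_, ?_⟩
  · rw [← Subgroup.map_sup, hK.sup_eq_top, ← MonoidHom.range_eq_map, Subgroup.range_subtype]
  · rw [Subgroup.card_map_of_injective A.subtype_injective, Sylow.card_eq_multiplicity]
  · rw [Subgroup.card_map_of_injective A.subtype_injective,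
      Subgroup.card_map_of_injective A.subtype_injective]
    exact hK.card_mul_card
  · rw [Subgroup.card_map_of_injective A.subtype_injective]
    have h1 : Nat.card K = (P : Subgroup A).index := by
      have h2 := hK.card_mul_card
      have h3 := (P : Subgroup A).card_mul_index
      exact Nat.eq_of_mul_eq_mul_left Nat.card_pos (h2.trans h3.symm)
    rw [h1, ← Nat.not_even_iff_odd, even_iff_two_dvd]
    exact P.not_dvd_index

end Cfsg.Agent.Lib.H14AcDec
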