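import Mathlib
import Cfsg.Agent.Lib.H14AcDefs
import Cfsg.Agent.Lib.H14AbOrdP

set_option autoImplicit false

/-! PROJECT 3912 = AC (row S3912, 3u), piece `Ex4` (est. 25m).  Keep file name, namespace, theorem name and statement; extra helper lemmas are fine.
Overview: notes/helper14/Ac/README.md.  Vocabulary: Lib/H14AbDefs (HB, MinS), Lib/H14AcDefs (LiftP, HI, QD, XH). -/

namespace Cfsg.Agent.Lib.H14AcEx4

open Cfsg Cfsg.Agent.Lib.H14AbDefs Cfsg.Agent.Lib.H14AcDefs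

/-- Pick `y ∈ T`, `y ∉ M`; `orderOf y = 2 ^ k`; `k ≠ 0` (`1 ∈ M`), `k ≠ 1` (`H14AbOrdP.mem_of_orderOf hB M h2 y`); `x := y ^ (2 ^ (k - 2))` has order `4` (`orderOf_pow_of_dvd`). -/
theorem exists_four {G : Type*} [Group G] [Finite G] (hB : HB G) (M : Subgroup G) [M.Normal]
    (h2 : 2 ∣ Nat.card M) (T : Sylow 2 G) (hTM : ¬ (T : Subgroup G) ≤ M) : ∃ x : G, orderOf x = 4 := by
  obtain ⟨y, hyT, hyM⟩ := SetLike.not_le_iff_exists.1 hTM
  obtain ⟨k, hk⟩ := (IsPGroup.iff_orderOf.1 T.2) ⟨y, hyT⟩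
  rw [Subgroup.orderOf_mk] at hk
  have hk0 : k ≠ 0 := by
    rintro rfl
    rw [pow_zero, orderOf_eq_one_iff] at hk
    exact hyM (hk ▸ M.one_mem)
  have hk1 : k ≠ 1 := by
    rintro rfl
    rw [pow_one] at hk
    exact hyM (Cfsg.Agent.Lib.H14AbOrdP.mem_of_orderOf hB M h2 y hk)
  refine ⟨y ^ (2 ^ (k - 2)), ?_⟩
  have hd : 2 ^ (k - 2) ∣ orderOf y := by
    rw [hk]; exact pow_dvd_pow 2 (by omega)
  rw [orderOf_pow_of_dvd (by positivity) hd, hk]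
  obtain ⟨j, rfl⟩ : ∃ j, k = j + 2 := ⟨k - 2, by omega⟩
  rw [Nat.add_sub_cancel, pow_add, Nat.mul_div_cancel_left _ (by positivity)]
  norm_num

end Cfsg.Agent.Lib.H14AcEx4
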