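import Mathlib
import Cfsg.Agent.Lib.H14AcDefs
import Cfsg.Agent.Lib.H14AbSylBot

set_option autoImplicit false

/-! PROJECT 3912 = AC (row S3912, 3u), piece `FacB2` (est. 30m).  Keep file name, namespace, theorem name and statement; extra helper lemmas are fine.
Overview: notes/helper14/Ac/README.md.  Vocabulary: Lib/H14AbDefs (HB, MinS), Lib/H14AcDefs (LiftP, HI, QD, XH). -/

namespace Cfsg.Agent.Lib.H14AcFacB2

open Cfsg Cfsg.Agent.Lib.H14AbDefs Cfsg.Agent.Lib.H14AcDefs

/-- COPY of the landed `Lib/H14AbFacB.fac_eq` with `hI` instead of `H14AbInf.card_inf`. -/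
theorem fac_eq {G : Type*} [Group G] [Finite G] (M : Subgroup G) [M.Normal] (A : Subgroup G)
    (h : MinS ↥A (M.subgroupOf A)) (p : ℕ) [Fact p.Prime] (hI : p ∣ Nat.card M → HI M A p)
    (hp : p ∣ (M.subgroupOf A).index) :
    (Nat.card ↥A).factorization p =
      ((M.subgroupOf A).index).factorization p + (Nat.card M).factorization p := by
  have hpp : p.Prime := Fact.out
  have h1 : Nat.card (M.subgroupOf A) * (M.subgroupOf A).index = Nat.card ↥A :=
    Subgroup.card_mul_index _
  have h2 : Nat.card (M.subgroupOf A) = Nat.card ↥(A ⊓ M) := by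
    have e : (M.subgroupOf A) = ((A ⊓ M).subgroupOf A) := by
      rw [Subgroup.inf_subgroupOf_left]
    rw [e]
    exact Nat.card_congr (Subgroup.subgroupOfEquivOfLe inf_le_left).toEquiv
  have hc0 : Nat.card (M.subgroupOf A) ≠ 0 := Nat.card_pos.ne'
  have hi0 : (M.subgroupOf A).index ≠ 0 := Subgroup.index_ne_zero_of_finite
  have hM0 : Nat.card M ≠ 0 := Nat.card_pos.ne'
  have hAM0 : Nat.card ↥(A ⊓ M) ≠ 0 := Nat.card_pos.ne'
  have key : (Nat.card ↥(A ⊓ M)).factorization p = (Nat.card M).factorization p := by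
    apply le_antisymm
    · exact (Nat.factorization_le_iff_dvd hAM0 hM0).2 (Subgroup.card_dvd_of_le inf_le_right) p
    · by_cases hpM : p ∣ Nat.card M
      · obtain ⟨Q⟩ : Nonempty (Sylow p ↥A) := inferInstance
        have hRM : ¬ (Q : Subgroup ↥A).map A.subtype ≤ M := by
          intro hle
          have hQ : (Q : Subgroup ↥A) ≤ M.subgroupOf A := by
            intro x hx
            rw [Subgroup.mem_subgroupOf]
            exact hle (Subgroup.mem_map_of_mem _ hx)
          have hbot := H14AbSylBot.sylow_eq_bot h p Q hQ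
          have hdvd : p ∣ Nat.card ↥A := by
            rw [← h1]
            exact Dvd.dvd.mul_left hp _
          exact Sylow.ne_bot_of_dvd_card Q hdvd hbot
        have hR : IsPGroup p ((Q : Subgroup ↥A).map A.subtype) := Q.isPGroup'.map _
        obtain ⟨-, hd⟩ := hI hpM _ (Subgroup.map_subtype_le _) hR hRM
        have hle : (Q : Subgroup ↥A).map A.subtype ⊓ M ≤ A ⊓ M := by
          apply inf_le_inf_right
          exact Subgroup.map_subtype_le _
        have hd2 : p ^ (Nat.card M).factorization p ∣ Nat.card ↥(A ⊓ M) :=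
          hd.trans (Subgroup.card_dvd_of_le hle)
        exact (hpp.pow_dvd_iff_le_factorization hAM0).1 hd2
      · rw [Nat.factorization_eq_zero_of_not_dvd hpM]
        exact Nat.zero_le _
  rw [← h1, Nat.factorization_mul hc0 hi0, Finsupp.add_apply, h2, key, add_comm]

end Cfsg.Agent.Lib.H14AcFacB2
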