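import Mathlib
import Cfsg.Agent.Lib.H14AcDefs

set_option autoImplicit false

/-! PROJECT 3912 = AC (row S3912, 3u), piece `HIa` (est. 20m).  Keep file name, namespace, theorem name and statement; extra helper lemmas are fine.
Overview: notes/helper14/Ac/README.md.  Vocabulary: Lib/H14AbDefs (HB, MinS), Lib/H14AcDefs (LiftP, HI, QD, XH). -/

namespace Cfsg.Agent.Lib.H14AcHIa

open Cfsg Cfsg.Agent.Lib.H14AbDefs Cfsg.Agent.Lib.H14AcDefs
open scoped Pointwise

/-- PURE MATHLIB.  Vacuous: a `2`-subgroup `R` lies in a Sylow subgroup `P`, `P = g • T`, and `g T g⁻¹ ≤ M` by normality; so `R ≤ M`. -/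
theorem hi_a {G : Type*} [Group G] [Finite G] (M : Subgroup G) [M.Normal] (T : Sylow 2 G)
    (hT : (T : Subgroup G) ≤ M) (A : Subgroup G) : HI M A 2 := by
  intro R _ hR hRM
  exfalso
  apply hRM
  obtain ⟨P, hRP⟩ := hR.exists_le_sylow
  obtain ⟨g, hg⟩ := MulAction.exists_smul_eq G T P
  intro x hx
  have hx' : x ∈ (P : Subgroup G) := hRP hx
  rw [← hg, Sylow.coe_subgroup_smul, Subgroup.mem_pointwise_smul_iff_inv_smul_mem] at hx'
  have h1 := hT hx'
  rw [MulAut.smul_def, MulAut.conj_inv_apply] at h1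
  have h2 := (inferInstance : M.Normal).conj_mem _ h1 g
  simpa [mul_assoc] using h2

end Cfsg.Agent.Lib.H14AcHIa
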