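import Mathlib
import Cfsg.Agent.Lib.H14AcDefs
import Cfsg.Agent.Lib.H14AbSylInf
import Cfsg.Agent.Lib.H14AbChain

set_option autoImplicit false

/-! PROJECT 3912 = AC (row S3912, 3u), piece `HIb` (est. 35m).  Keep file name, namespace, theorem name and statement; extra helper lemmas are fine.
Overview: notes/helper14/Ac/README.md.  Vocabulary: Lib/H14AbDefs (HB, MinS), Lib/H14AcDefs (LiftP, HI, QD, XH). -/

namespace Cfsg.Agent.Lib.H14AcHIb

open Cfsg Cfsg.Agent.Lib.H14AbDefs Cfsg.Agent.Lib.H14AcDefs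

/-- As in `Lib/H14AbInf`. -/
theorem hi_b {G : Type*} [Group G] [Finite G] (M : Subgroup G) [M.Normal] (T : Sylow 2 G)
    (hT : IsCyclic ↥(T : Subgroup G)) (A : Subgroup G) : HI M A 2 := by
  intro R _ hR hRM
  obtain ⟨P, hRP⟩ := hR.exists_le_sylow
  have hPc : IsCyclic (P : Subgroup G) :=
    isCyclic_of_surjective (Sylow.equiv T P) (Sylow.equiv T P).surjective
  constructor
  · intro x hx y hy
    have := hPc
    have hc := (IsCyclic.commGroup (α := (P : Subgroup G))).mul_comm ⟨x, hRP hx⟩ ⟨y, hRP hy⟩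
    exact congrArg Subtype.val hc
  · rcases H14AbChain.le_or_le (P : Subgroup G) P.isPGroup' hPc R ((P : Subgroup G) ⊓ M) hRP inf_le_left
      with h1 | h1
    · exact absurd (h1.trans inf_le_right) hRM
    · rw [← H14AbSylInf.card_sylow_inf M P]
      exact Subgroup.card_dvd_of_le (le_inf h1 inf_le_right)

end Cfsg.Agent.Lib.H14AcHIb
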