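import Mathlib
import Cfsg.Agent.Lib.H14AcDefs
import Cfsg.Agent.Lib.H14AbOrdP

set_option autoImplicit false

/-! PROJECT 3912 = AC (row S3912, 3u), piece `HIc` (est. 45m).  Keep file name, namespace, theorem name and statement; extra helper lemmas are fine.
Overview: notes/helper14/Ac/README.md.  Vocabulary: Lib/H14AbDefs (HB, MinS), Lib/H14AcDefs (LiftP, HI, QD, XH). -/

namespace Cfsg.Agent.Lib.H14AcHIc

open Cfsg Cfsg.Agent.Lib.H14AbDefs Cfsg.Agent.Lib.H14AcDefs

/-- Let `R ≤ Ab.comap mk'` be a `2`-group, `R ≰ M`.  `|R| = |R.map mk'| * |R ⊓ M|` (first isomorphism theorem for `mk'` restricted to `R`; e.g. `Subgroup.card_mul_index (M.subgroupOf R)`, `Subgroup.index_ker`...).  `|R.map mk'|` is a power of `2` dividing `|Ab|`, not divisible by `4`: it is `≤ 2`.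
`|R ⊓ M|` is a power of `2` dividing `|M|`, so it divides `2 ^ 1` (`hv`; `Nat.Prime.pow_dvd_iff_le_factorization`).  So `|R| ∣ 4`: `R` is commutative (`|R| = 1, 2` cyclic of prime order; `|R| = 4 = 2 ^ 2`: `IsPGroup.commutative_of_card_eq_prime_sq`).
`2 ^ 1 ∣ |R ⊓ M|`: `R ≠ ⊥` contains an element of order `2` (Cauchy), which lies in `M` (`H14AbOrdP.mem_of_orderOf hB M h2`); `orderOf_dvd_natCard`. -/
theorem hi_c {G : Type*} [Group G] [Finite G] (hB : HB G) (M : Subgroup G) [M.Normal] (h2 : 2 ∣ Nat.card M)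
    (hv : (Nat.card M).factorization 2 = 1) (Ab : Subgroup (G ⧸ M)) (h4 : ¬ 4 ∣ Nat.card ↥Ab) :
    HI M (Ab.comap (QuotientGroup.mk' M)) 2 := by
  have : Fact (Nat.Prime 2) := ⟨Nat.prime_two⟩
  intro R hRA hR hRM
  -- the second statement
  have hRne : Nontrivial R := by
    by_contra hcon
    rw [not_nontrivial_iff_subsingleton] at hcon
    apply hRM
    intro x hx
    have : (⟨x, hx⟩ : R) = 1 := Subsingleton.elim _ _
    have h1 : x = 1 := congrArg Subtype.val this
    rw [h1]; exact M.one_mem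
  obtain ⟨k, hk⟩ := hR.exists_card_eq
  have hk0 : k ≠ 0 := by
    rintro rfl
    rw [pow_zero] at hk
    have := Finite.one_lt_card (α := R)
    omega
  have h2R : 2 ∣ Nat.card R := by rw [hk]; exact dvd_pow_self 2 hk0
  obtain ⟨x, hx⟩ := exists_prime_orderOf_dvd_card' (G := R) 2 h2R
  have hxo : orderOf (x : G) = 2 := by rw [Subgroup.orderOf_coe]; exact hx
  have hxM : (x : G) ∈ M := H14AbOrdP.mem_of_orderOf hB M h2 (x : G) hxo
  have hdvd : 2 ^ (Nat.card M).factorization 2 ∣ Nat.card ↥(R ⊓ M) := by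
    rw [hv, pow_one]
    have h1 := orderOf_dvd_natCard (⟨(x : G), ⟨x.2, hxM⟩⟩ : ↥(R ⊓ M))
    rw [← Subgroup.orderOf_coe] at h1
    change orderOf (x : G) ∣ _ at h1
    rw [hxo] at h1
    exact h1
  refine ⟨?_, hdvd⟩
  -- the order of `R`
  set φ : R →* G ⧸ M := (QuotientGroup.mk' M).comp R.subtype with hφ
  have hker : φ.ker = M.subgroupOf R := by
    rw [hφ, ← MonoidHom.comap_ker, QuotientGroup.ker_mk']
    rfl
  have hrange : φ.range = R.map (QuotientGroup.mk' M) := by
    rw [hφ, ← MonoidHom.map_range, Subgroup.range_subtype]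
  have hcard : Nat.card R = Nat.card (M.subgroupOf R) * Nat.card (R.map (QuotientGroup.mk' M)) := by
    rw [← hker, ← hrange, ← Subgroup.index_ker, Subgroup.card_mul_index]
  have hp1 : IsPGroup 2 (R.map (QuotientGroup.mk' M)) := hR.map _
  obtain ⟨i, hi⟩ := hp1.exists_card_eq
  have hle : R.map (QuotientGroup.mk' M) ≤ Ab := Subgroup.map_le_iff_le_comap.2 hRA
  have hi1 : i ≤ 1 := by
    by_contra hcon
    apply h4
    have h1 : 2 ^ i ∣ Nat.card Ab := by rw [← hi]; exact Subgroup.card_dvd_of_le hle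
    exact dvd_trans (by
      have : (4 : ℕ) = 2 ^ 2 := by norm_num
      rw [this]
      exact pow_dvd_pow 2 (by omega)) h1
  have hp2 : IsPGroup 2 (M.subgroupOf R) := hR.to_subgroup _
  obtain ⟨j, hj⟩ := hp2.exists_card_eq
  have hcard2 : Nat.card (M.subgroupOf R) = Nat.card ↥(M ⊓ R) := by
    rw [← Subgroup.inf_subgroupOf_right]
    exact Nat.card_congr (Subgroup.subgroupOfEquivOfLe (inf_le_right : M ⊓ R ≤ R)).toEquiv
  have hj1 : j ≤ 1 := by
    have h1 : 2 ^ j ∣ Nat.card M := by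
      rw [← hj, hcard2]
      exact Subgroup.card_dvd_of_le inf_le_left
    have := (Nat.prime_two.pow_dvd_iff_le_factorization Nat.card_pos.ne').1 h1
    omega
  have hk2 : k ≤ 2 := by
    rw [hk, hj, hi, ← pow_add] at hcard
    have := Nat.pow_right_injective (le_refl 2) hcard
    omega
  have hcomm : ∀ a b : R, a * b = b * a := by
    have hk12 : k = 1 ∨ k = 2 := by omega
    rcases hk12 with rfl | rfl
    · rw [pow_one] at hk
      have hc : IsCyclic R := isCyclic_of_prime_card hk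
      exact fun a b => hc.isMulCommutative.is_comm.comm a b
    · exact IsPGroup.commutative_of_card_eq_prime_sq hk
  intro a ha b hb
  exact congrArg Subtype.val (hcomm ⟨a, ha⟩ ⟨b, hb⟩)

end Cfsg.Agent.Lib.H14AcHIc
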