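import Mathlib
import Cfsg.Agent.Lib.H14AcDefs
import Cfsg.Agent.Lib.H14AbSylN
import Cfsg.Agent.Lib.H14AbSylBot
import Cfsg.Agent.Lib.H14AbComm

set_option autoImplicit false

/-! PROJECT 3912 = AC (row S3912, 3u), piece `LiftComm2` (est. 30m).  Keep file name, namespace, theorem name and statement; extra helper lemmas are fine.
Overview: notes/helper14/Ac/README.md.  Vocabulary: Lib/H14AbDefs (HB, MinS), Lib/H14AcDefs (LiftP, HI, QD, XH). -/

namespace Cfsg.Agent.Lib.H14AcLiftComm2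

open Cfsg Cfsg.Agent.Lib.H14AbDefs Cfsg.Agent.Lib.H14AcDefs
open scoped commutatorElement

/-- COPY of the landed `Lib/H14AbLiftComm.lift_comm` with `hI` instead of `H14AbInf.card_inf` (no `HB`, no oddness).
`H14AbComm.comm_of_sylow` in `↥A` (normality: `H14AbSylN.sylow_normal h`).  Let `Q : Sylow p ↥A`, `R := (Q : Subgroup ↥A).map A.subtype ≤ A` (a `p`-subgroup of `G`), `x y ∈ Q`.
* `p ∤ Nat.card M`: `⁅(x:G), (y:G)⁆ ∈ R ⊓ M` (`hc`), and `R ⊓ M = ⊥`, so `x`, `y` commute.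
* `p ∣ Nat.card M`: if `R ≤ M` then `Q ≤ M.subgroupOf A`, so `Q = ⊥` (`H14AbSylBot.sylow_eq_bot h`).  Otherwise `(hI p hp R _ _ _).1`. -/
theorem lift_comm {G : Type*} [Group G] [Finite G] (M : Subgroup G) [M.Normal] (A : Subgroup G)
    (hc : ⁅A, A⁆ ≤ M) (h : MinS ↥A (M.subgroupOf A))
    (hI : ∀ (p : ℕ) [Fact p.Prime], p ∣ Nat.card M → HI M A p) : IsMulCommutative ↥A := by
  refine ⟨⟨?_⟩⟩
  apply H14AbComm.comm_of_sylow
  · intro p _ Q
    exact H14AbSylN.sylow_normal h p Q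
  · intro p hpf Q x hx y hy
    have hpp : p.Prime := hpf.out
    obtain ⟨R, hRdef⟩ : ∃ R : Subgroup G, R = (Q : Subgroup ↥A).map A.subtype := ⟨_, rfl⟩
    have hR : IsPGroup p R := by rw [hRdef]; exact Q.isPGroup'.map _
    have hRA : R ≤ A := by
      rw [hRdef]
      rintro _ ⟨z, -, rfl⟩
      exact z.2
    have hxR : (x : G) ∈ R := by rw [hRdef]; exact ⟨x, hx, rfl⟩
    have hyR : (y : G) ∈ R := by rw [hRdef]; exact ⟨y, hy, rfl⟩
    by_cases hp : p ∣ Nat.card M
    · by_cases hRM : R ≤ M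
      · have hQ : (Q : Subgroup ↥A) ≤ M.subgroupOf A := by
          intro z hz
          apply Subgroup.mem_subgroupOf.2
          apply hRM
          rw [hRdef]
          exact ⟨z, hz, rfl⟩
        have hbot := H14AbSylBot.sylow_eq_bot h p Q hQ
        have hx1 : x = 1 := by
          have : x ∈ (⊥ : Subgroup ↥A) := hbot ▸ hx
          exact Subgroup.mem_bot.1 this
        rw [hx1, one_mul, mul_one]
      · have h2 : (x : G) * (y : G) = (y : G) * (x : G) :=
          (hI p hp R hRA hR hRM).1 x hxR y hyR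
        exact Subtype.ext h2
    · -- the commutator is a `p`-element of `M`
      have hcM : ⁅(x : G), (y : G)⁆ ∈ M :=
        hc (Subgroup.commutator_mem_commutator x.2 y.2)
      have hcR : ⁅(x : G), (y : G)⁆ ∈ R := by
        rw [commutatorElement_def]
        exact R.mul_mem (R.mul_mem (R.mul_mem hxR hyR) (R.inv_mem hxR)) (R.inv_mem hyR)
      obtain ⟨k, hk⟩ := hR ⟨_, hcR⟩
      have hk' : ⁅(x : G), (y : G)⁆ ^ p ^ k = 1 := congrArg Subtype.val hk
      have h1 : orderOf ⁅(x : G), (y : G)⁆ ∣ p ^ k := orderOf_dvd_of_pow_eq_one hk'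
      have h2 : orderOf ⁅(x : G), (y : G)⁆ ∣ Nat.card M := by
        have := orderOf_dvd_natCard (⟨_, hcM⟩ : M)
        rwa [Subgroup.orderOf_mk] at this
      have hcop : Nat.Coprime (p ^ k) (Nat.card M) :=
        Nat.Coprime.pow_left k ((Nat.Prime.coprime_iff_not_dvd hpp).2 hp)
      have h3 : orderOf ⁅(x : G), (y : G)⁆ = 1 := Nat.eq_one_of_dvd_coprimes hcop h1 h2
      have h4 : ⁅(x : G), (y : G)⁆ = 1 := orderOf_eq_one_iff.1 h3
      apply Subtype.ext
      exact commutatorElement_eq_one_iff_mul_comm.1 h4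

end Cfsg.Agent.Lib.H14AcLiftComm2
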