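import Mathlib
import Cfsg.Agent.Lib.H14AcDefs
import Cfsg.Agent.Lib.H14AbMinEx
import Cfsg.Agent.Lib.H14AbMinTr
import Cfsg.Agent.Lib.H14AbFacA
import Cfsg.Agent.Lib.H14AcLiftComm2
import Cfsg.Agent.Lib.H14AcFacB2

set_option autoImplicit false

/-! PROJECT 3912 = AC (row S3912, 3u), piece `Lift2` (est. 30m).  Keep file name, namespace, theorem name and statement; extra helper lemmas are fine.
Overview: notes/helper14/Ac/README.md.  Vocabulary: Lib/H14AbDefs (HB, MinS), Lib/H14AcDefs (LiftP, HI, QD, XH). -/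

namespace Cfsg.Agent.Lib.H14AcLift2

open Cfsg Cfsg.Agent.Lib.H14AbDefs Cfsg.Agent.Lib.H14AcDefs
open scoped commutatorElement

theorem index_subgroupOf_eq2 {G : Type*} [Group G] (M : Subgroup G) [M.Normal] (A : Subgroup G) :
    (M.subgroupOf A).index = Nat.card ↥(A.map (QuotientGroup.mk' M)) := by
  have hker : ((QuotientGroup.mk' M).comp A.subtype).ker = M.subgroupOf A := by
    ext x
    rw [MonoidHom.mem_ker, Subgroup.mem_subgroupOf]
    exact QuotientGroup.eq_one_iff _
  have hrange : ((QuotientGroup.mk' M).comp A.subtype).range = A.map (QuotientGroup.mk' M) := by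
    rw [MonoidHom.range_comp, Subgroup.range_subtype]
  rw [← hker, Subgroup.index_ker, hrange]


/-- COPY of the landed `Lib/H14AbLift.exists_lift` (use `H14AcLiftComm2.lift_comm`, `H14AcFacB2.fac_eq`; `HI M A p` follows from `HI M L p` for `A ≤ L := Ab.comap (mk' M)`: `fun R hR => hI p hp R (hR.trans hAL)`). -/
theorem exists_lift {G : Type*} [Group G] [Finite G] (M : Subgroup G) [M.Normal] (Ab : Subgroup (G ⧸ M))
    (hAb : IsMulCommutative ↥Ab)
    (hI : ∀ (p : ℕ) [Fact p.Prime], p ∣ Nat.card M → HI M (Ab.comap (QuotientGroup.mk' M)) p) :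
    LiftP M Ab := by
  obtain ⟨L, hL⟩ : ∃ L : Subgroup G, L = Ab.comap (QuotientGroup.mk' M) := ⟨_, rfl⟩
  have hML : M ≤ L := by
    intro x hx
    rw [hL, Subgroup.mem_comap]
    have : QuotientGroup.mk' M x = 1 := (QuotientGroup.eq_one_iff x).2 hx
    rw [this]; exact Ab.one_mem
  obtain ⟨A, hAL, hsup, hmin⟩ := H14AbMinEx.exists_min M L
  have hMbot : M.map (QuotientGroup.mk' M) = ⊥ := by
    rw [eq_bot_iff]
    rintro _ ⟨x, hx, rfl⟩
    exact Subgroup.mem_bot.2 ((QuotientGroup.eq_one_iff x).2 hx)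
  have hmap : A.map (QuotientGroup.mk' M) = Ab := by
    have h1 : (A ⊔ M).map (QuotientGroup.mk' M) = A.map (QuotientGroup.mk' M) := by
      rw [Subgroup.map_sup, hMbot, sup_bot_eq]
    have h2 : (L ⊔ M).map (QuotientGroup.mk' M) = Ab := by
      rw [sup_eq_left.2 hML, hL]
      exact Subgroup.map_comap_eq_self_of_surjective (QuotientGroup.mk'_surjective M) Ab
    rw [← h1, hsup, h2]
  have hc : ⁅A, A⁆ ≤ M := by
    rw [Subgroup.commutator_le]
    intro x hx y hy
    have hx' : QuotientGroup.mk' M x ∈ Ab := hmap ▸ Subgroup.mem_map_of_mem _ hx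
    have hy' : QuotientGroup.mk' M y ∈ Ab := hmap ▸ Subgroup.mem_map_of_mem _ hy
    have hcomm : QuotientGroup.mk' M x * QuotientGroup.mk' M y =
        QuotientGroup.mk' M y * QuotientGroup.mk' M x := by
      have := hAb.is_comm.comm (⟨_, hx'⟩ : Ab) ⟨_, hy'⟩
      exact congrArg Subtype.val this
    apply (QuotientGroup.eq_one_iff _).1
    show QuotientGroup.mk' M ⁅x, y⁆ = 1
    rw [map_commutatorElement]
    exact commutatorElement_eq_one_iff_mul_comm.2 hcomm
  have hS : MinS ↥A (M.subgroupOf A) := by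
    apply H14AbMinTr.minS_of M A hc
    intro K hK hKM
    exact hmin K hK (hKM.trans hsup)
  have hidx : (M.subgroupOf A).index = Nat.card ↥Ab := by
    rw [index_subgroupOf_eq2, hmap]
  have hIA : ∀ (p : ℕ) [Fact p.Prime], p ∣ Nat.card M → HI M A p := by
    intro p _ hp R hR
    exact hI p hp R (hR.trans (hL ▸ hAL))
  refine ⟨A, H14AcLiftComm2.lift_comm M A hc hS hIA, hmap, ?_⟩
  intro p hp
  have : Fact p.Prime := ⟨hp⟩
  split_ifs with hd
  · rw [← hidx]
    exact H14AcFacB2.fac_eq M A hS p (hIA p) (hidx ▸ hd)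
  · apply Nat.factorization_eq_zero_of_not_dvd
    exact H14AbFacA.not_dvd M A hS p (hidx ▸ hd)

end Cfsg.Agent.Lib.H14AcLift2
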