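import Mathlib
import Cfsg.Agent.Lib.H14AcDefs
import Cfsg.Agent.Lib.Helper66Coprime

set_option autoImplicit false

/-! PROJECT 3912 = AC (row S3912, 3u), piece `SylC` (est. 45m).  Keep file name, namespace, theorem name and statement; extra helper lemmas are fine.
Overview: notes/helper14/Ac/README.md.  Vocabulary: Lib/H14AbDefs (HB, MinS), Lib/H14AcDefs (LiftP, HI, QD, XH). -/

namespace Cfsg.Agent.Lib.H14AcSylC

open Cfsg Cfsg.Agent.Lib.H14AbDefs Cfsg.Agent.Lib.H14AcDefs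

/-- PURE MATHLIB.  `A₂.subgroupOf C`, `B₂.subgroupOf C` are subgroups of `↥C` of order `2 ^ v_2|Γ|`; as `|C| ∣ |Γ|` they are Sylow `2`-subgroups of `↥C` (`Sylow.ofCard` needs `card = 2 ^ v_2|C|`: `2 ^ v_2|Γ| ∣ |C| ∣ |Γ|` gives `v_2|C| = v_2|Γ|`), hence conjugate in `↥C` (`MulAction.exists_smul_eq`). -/
theorem sylow_conj_in {Γ : Type*} [Group Γ] [Finite Γ] (C A₂ B₂ : Subgroup Γ) (hA : A₂ ≤ C) (hB : B₂ ≤ C)
    (hcA : Nat.card ↥A₂ = 2 ^ (Nat.card Γ).factorization 2) (hcB : Nat.card ↥B₂ = 2 ^ (Nat.card Γ).factorization 2) :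
    ∃ c ∈ C, B₂ = A₂.map (MulAut.conj c).toMonoidHom := by
  have : Fact (Nat.Prime 2) := ⟨Nat.prime_two⟩
  have hCpos : Nat.card C ≠ 0 := Nat.card_pos.ne'
  have hΓpos : Nat.card Γ ≠ 0 := Nat.card_pos.ne'
  have h1 : 2 ^ (Nat.card Γ).factorization 2 ∣ Nat.card C := by
    rw [← hcA]
    exact Subgroup.card_dvd_of_le hA
  have h2 : Nat.card C ∣ Nat.card Γ := Subgroup.card_subgroup_dvd_card C
  have hv : (Nat.card C).factorization 2 = (Nat.card Γ).factorization 2 := by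
    apply le_antisymm
    · exact (Nat.factorization_le_iff_dvd hCpos hΓpos).2 h2 2
    · exact (Nat.Prime.pow_dvd_iff_le_factorization Nat.prime_two hCpos).1 h1
  have hcA' : Nat.card (A₂.subgroupOf C) = 2 ^ (Nat.card C).factorization 2 := by
    rw [hv, ← hcA]
    exact Nat.card_congr (Subgroup.subgroupOfEquivOfLe hA).toEquiv
  have hcB' : Nat.card (B₂.subgroupOf C) = 2 ^ (Nat.card C).factorization 2 := by
    rw [hv, ← hcB]
    exact Nat.card_congr (Subgroup.subgroupOfEquivOfLe hB).toEquiv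
  obtain ⟨c, hc⟩ := MulAction.exists_smul_eq C (Sylow.ofCard (A₂.subgroupOf C) hcA')
    (Sylow.ofCard (B₂.subgroupOf C) hcB')
  refine ⟨c, c.2, ?_⟩
  ext x
  constructor
  · intro hx
    have hxC := hB hx
    have h3 : (⟨x, hxC⟩ : C) ∈ Sylow.ofCard (B₂.subgroupOf C) hcB' := Subgroup.mem_subgroupOf.2 hx
    rw [← hc, Cfsg.Agent.Lib.Helper66Coprime.sylow_mem_conj_smul_iff] at h3
    have h4 : (c : Γ)⁻¹ * x * c ∈ A₂ := Subgroup.mem_subgroupOf.1 h3
    refine ⟨_, h4, ?_⟩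
    show (c : Γ) * ((c : Γ)⁻¹ * x * c) * (c : Γ)⁻¹ = x
    group
  · rintro ⟨a, ha, rfl⟩
    have haC := hA ha
    have h3 : (c * ⟨a, haC⟩ * c⁻¹ : C) ∈ c • Sylow.ofCard (A₂.subgroupOf C) hcA' := by
      rw [Cfsg.Agent.Lib.Helper66Coprime.sylow_mem_conj_smul_iff]
      have e : c⁻¹ * (c * ⟨a, haC⟩ * c⁻¹) * c = ⟨a, haC⟩ := by group
      rw [e]
      exact Subgroup.mem_subgroupOf.2 ha
    rw [hc] at h3
    exact Subgroup.mem_subgroupOf.1 h3

end Cfsg.Agent.Lib.H14AcSylC
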