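import Mathlib
import Cfsg.Agent.Lib.H14AcDefs
import Cfsg.Agent.Lib.H14AcDec
import Cfsg.Agent.Lib.H14AcSylC

set_option autoImplicit false

/-! PROJECT 3912 = AC (row S3912, 3u), piece `SylExt` (est. 50m).  Keep file name, namespace, theorem name and statement; extra helper lemmas are fine.
Overview: notes/helper14/Ac/README.md.  Vocabulary: Lib/H14AbDefs (HB, MinS), Lib/H14AcDefs (LiftP, HI, QD, XH). -/

namespace Cfsg.Agent.Lib.H14AcSylExt

open Cfsg Cfsg.Agent.Lib.H14AbDefs Cfsg.Agent.Lib.H14AcDefs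

/-- abelian subgroups containing a Sylow 2-subgroup: conjugacy reduces to the odd parts. -/
theorem conj_of_sylow {Γ : Type*} [Group Γ] [Finite Γ]
    (h0 : ∀ A B : Subgroup Γ, IsMulCommutative ↥A → IsMulCommutative ↥B → Nat.card ↥A = Nat.card ↥B →
      Odd (Nat.card ↥A) → ∃ g : Γ, B = A.map (MulAut.conj g).toMonoidHom)
    (A B : Subgroup Γ) (hA : IsMulCommutative ↥A) (hB : IsMulCommutative ↥B) (hc : Nat.card ↥A = Nat.card ↥B)
    (hv : (Nat.card ↥A).factorization 2 = (Nat.card Γ).factorization 2) :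
    ∃ g : Γ, B = A.map (MulAut.conj g).toMonoidHom := by
  obtain ⟨A₂, A', hAs, hA2, hAm, hAo⟩ := H14AcDec.exists_dec A hA
  obtain ⟨B₂, B', hBs, hB2, hBm, hBo⟩ := H14AcDec.exists_dec B hB
  have hcommA : ∀ x ∈ A, ∀ y ∈ A, x * y = y * x := fun x hx y hy =>
    congrArg Subtype.val (hA.is_comm.comm ⟨x, hx⟩ ⟨y, hy⟩)
  have hcommB : ∀ x ∈ B, ∀ y ∈ B, x * y = y * x := fun x hx y hy =>
    congrArg Subtype.val (hB.is_comm.comm ⟨x, hx⟩ ⟨y, hy⟩)
  have hA2le : A₂ ≤ A := hAs ▸ le_sup_left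
  have hA'le : A' ≤ A := hAs ▸ le_sup_right
  have hB2le : B₂ ≤ B := hBs ▸ le_sup_left
  have hB'le : B' ≤ B := hBs ▸ le_sup_right
  have hA'c : IsMulCommutative ↥A' :=
    ⟨⟨fun a b => Subtype.ext (hcommA a (hA'le a.2) b (hA'le b.2))⟩⟩
  have hB'c : IsMulCommutative ↥B' :=
    ⟨⟨fun a b => Subtype.ext (hcommB a (hB'le a.2) b (hB'le b.2))⟩⟩
  have hcA2 : Nat.card ↥A₂ = 2 ^ (Nat.card Γ).factorization 2 := by rw [hA2, hv]
  have hcB2 : Nat.card ↥B₂ = 2 ^ (Nat.card Γ).factorization 2 := by rw [hB2, ← hc, hv]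
  have hcard' : Nat.card ↥A' = Nat.card ↥B' := by
    have h1 : Nat.card ↥A₂ * Nat.card ↥A' = Nat.card ↥A₂ * Nat.card ↥B' := by
      rw [hAm, hc, ← hBm, hcA2, hcB2]
    exact Nat.eq_of_mul_eq_mul_left Nat.card_pos h1
  obtain ⟨g, hg⟩ := h0 A' B' hA'c hB'c hcard' hAo
  have hle1 : A₂.map (MulAut.conj g).toMonoidHom ≤ Subgroup.centralizer (B' : Set Γ) := by
    rintro _ ⟨x, hx, rfl⟩
    rw [Subgroup.mem_centralizer_iff]
    intro b hb
    have hb' : b ∈ A'.map (MulAut.conj g).toMonoidHom := by rw [← hg]; exact hb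
    obtain ⟨a, ha, rfl⟩ := hb'
    have h1 := hcommA a (hA'le ha) x (hA2le hx)
    simp only [MulEquiv.coe_toMonoidHom, MulAut.conj_apply]
    calc g * a * g⁻¹ * (g * x * g⁻¹) = g * (a * x) * g⁻¹ := by group
      _ = g * (x * a) * g⁻¹ := by rw [h1]
      _ = g * x * g⁻¹ * (g * a * g⁻¹) := by group
  have hle2 : B₂ ≤ Subgroup.centralizer (B' : Set Γ) := by
    intro x hx
    rw [Subgroup.mem_centralizer_iff]
    intro b hb
    exact hcommB b (hB'le hb) x (hB2le hx)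
  have hcm : Nat.card ↥(A₂.map (MulAut.conj g).toMonoidHom) = 2 ^ (Nat.card Γ).factorization 2 := by
    rw [Subgroup.card_map_of_injective (MulAut.conj g).injective, hcA2]
  obtain ⟨c, hcC, hc2⟩ := H14AcSylC.sylow_conj_in _ _ B₂ hle1 hle2 hcm hcB2
  have hB'fix : B'.map (MulAut.conj c).toMonoidHom = B' := by
    have hfix : ∀ b ∈ B', c * b * c⁻¹ = b := by
      intro b hb
      have h1 := Subgroup.mem_centralizer_iff.mp hcC b hb
      rw [← h1, mul_inv_cancel_right]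
    ext y
    constructor
    · rintro ⟨b, hb, rfl⟩
      simp only [MulEquiv.coe_toMonoidHom, MulAut.conj_apply]
      rw [hfix b hb]
      exact hb
    · intro hy
      exact ⟨y, hy, by simp only [MulEquiv.coe_toMonoidHom, MulAut.conj_apply]; exact hfix y hy⟩
  have hmm : ∀ H : Subgroup Γ, H.map (MulAut.conj (c * g)).toMonoidHom
      = (H.map (MulAut.conj g).toMonoidHom).map (MulAut.conj c).toMonoidHom := by
    intro H
    rw [Subgroup.map_map]
    congr 1
    ext x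
    simp [mul_assoc]
  refine ⟨c * g, ?_⟩
  rw [hmm, ← hAs, Subgroup.map_sup, Subgroup.map_sup, ← hg, hB'fix, ← hc2, hBs]

end Cfsg.Agent.Lib.H14AcSylExt
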