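import Mathlib
import Cfsg.Agent.Lib.H14AcDefs

set_option autoImplicit false

/-! PROJECT 3912 = AC (row S3912, 3u), piece `V2` (est. 25m).  Keep file name, namespace, theorem name and statement; extra helper lemmas are fine.
Overview: notes/helper14/Ac/README.md.  Vocabulary: Lib/H14AbDefs (HB, MinS), Lib/H14AcDefs (LiftP, HI, QD, XH). -/

namespace Cfsg.Agent.Lib.H14AcV2

open Cfsg Cfsg.Agent.Lib.H14AbDefs Cfsg.Agent.Lib.H14AcDefs

/-- PURE MATHLIB.  `|G| = |G ⧸ M| * |M|` (`Subgroup.card_eq_card_quotient_mul_card_subgroup`), `Nat.factorization_mul`, `v_2|G| = 3` from `Sylow.card_eq_multiplicity` (`8 = 2 ^ 3`, `Nat.pow_right_injective`). -/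
theorem fac_quot {G : Type*} [Group G] [Finite G] (M : Subgroup G) [M.Normal] (T : Sylow 2 G)
    (hT8 : Nat.card ↥(T : Subgroup G) = 8) (hv : (Nat.card M).factorization 2 = 1) :
    (Nat.card (G ⧸ M)).factorization 2 = 2 := by
  have hG : Nat.card G = Nat.card (G ⧸ M) * Nat.card M := Subgroup.card_eq_card_quotient_mul_card_subgroup M
  have h3 : (Nat.card G).factorization 2 = 3 := by
    have h := T.card_eq_multiplicity
    rw [hT8] at h
    have h8 : (8 : ℕ) = 2 ^ 3 := by norm_num
    rw [h8] at h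
    exact (Nat.pow_right_injective (le_refl 2) h).symm
  rw [hG, Nat.factorization_mul Nat.card_pos.ne' Nat.card_pos.ne', Finsupp.add_apply, hv] at h3
  omega

end Cfsg.Agent.Lib.H14AcV2
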