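import Mathlib
import Cfsg.Agent.Lib.Helper5Exc2

set_option autoImplicit false

/-! PROJECT 720 (= piece N720 of project 496), piece A1: the Sylow 5-data of a simple group of order 720. -/
namespace Cfsg.Agent.Lib.H15N720A1
open Subgroup

theorem key1 : ∀ n ∈ Nat.divisors 144, n % 5 = 1 → n ≠ 1 → n = 6 ∨ n = 16 ∨ n = 36 := by
  decide +kernel

theorem key2 : ∀ x ∈ Nat.divisors 720, ¬ 5 ∣ x → 10 ≤ x → x % 2 = 0 := by decide +kernel

theorem key3 : ¬ (2 * 720 ∣ Nat.factorial 6) := by decide

theorem sylow5 {G : Type*} [Group G] [Finite G] [IsSimpleGroup G] [Fact (Nat.Prime 5)]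
    (h : Nat.card G = 720) (P : Sylow 5 G) :
    Nat.card (P : Subgroup G) = 5 ∧ Nat.card (centralizer ((P : Subgroup G) : Set G)) = 5 ∧
      (centralizer ((P : Subgroup G) : Set G)).relIndex (normalizer ((P : Subgroup G) : Set G)) = 4 := by
  classical
  let _ : Fintype G := Fintype.ofFinite G
  have hG : ¬ IsMulCommutative G :=
    Cfsg.Agent.Lib.Helper21Simple.not_comm_of_not_prime (by rw [h]; norm_num)
  obtain ⟨hP, n, m, hn1, hn2, hm1, hm2, hmn, hn, hm⟩ :=
    Cfsg.Agent.Lib.Helper5Exc.sylow_setup hG 144 (by rw [h]) (by norm_num) P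
  have hmul := Cfsg.Agent.Lib.Helper5Exc2.card_centralizer_mul P
  rw [hm, hn, h] at hmul
  have hm' : m = 2 ∨ m = 4 := by
    have hle : m ≤ 4 := Nat.le_of_dvd (by norm_num) hm2
    interval_cases m <;> simp_all
  have hn'' := key1 n (Nat.mem_divisors.mpr ⟨(dvd_mul_left _ _).trans hmn, by norm_num⟩) hn1 hn2
  have hn' : n = 6 ∨ n = 36 := by
    rcases hn'' with h6 | h16 | h36
    · exact Or.inl h6
    · exfalso
      subst h16
      rcases hm' with rfl | rfl <;> omega
    · exact Or.inr h36
  have hn6 : n ≠ 6 := by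
    intro h6
    have hidx : (normalizer ((P : Subgroup G) : Set G)).index = 6 := by
      have h0 := Sylow.card_eq_index_normalizer P
      rw [hn, h6] at h0
      exact h0.symm
    have hne : normalizer ((P : Subgroup G) : Set G) ≠ ⊤ := by
      intro htop
      rw [htop, Subgroup.index_top] at hidx
      omega
    have h1 := Cfsg.Agent.Lib.Helper21Simple.two_mul_card_dvd_factorial hG _ hne
    rw [hidx, h] at h1
    exact key3 h1
  have hn36 : n = 36 := by
    rcases hn' with h6 | h36
    · exact absurd h6 hn6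
    · exact h36
  subst hn36
  have hm4 : m = 4 := by
    rcases hm' with h2 | h4
    · exfalso
      subst h2
      have hC : Nat.card (centralizer ((P : Subgroup G) : Set G)) = 10 := by omega
      apply Cfsg.Agent.Lib.Helper5Exc2.no_even_centralizer hG P hP (by norm_num)
        (by rw [hC]; norm_num)
      intro x hx h5 h10
      rw [h] at hx
      exact Nat.even_iff.mpr (key2 x (Nat.mem_divisors.mpr ⟨hx, by norm_num⟩) h5 h10)
    · exact h4
  subst hm4
  exact ⟨hP, by omega, hm⟩

end Cfsg.Agent.Lib.H15N720A1
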