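import Mathlib

set_option autoImplicit false

/-! Vocabulary for project 2929 (overgroups of a Sylow 3-subgroup of Sym(n)). -/

namespace Cfsg.Agent.Lib.H16AltDefs

open Equiv Equiv.Perm

/-- `A Δ`: the even permutations of `Fin n` fixing every point outside `Δ` (a copy of `Alt(Δ)`). -/
def A {n : ℕ} (Δ : Finset (Fin n)) : Subgroup (Perm (Fin n)) where
  carrier := {σ | sign σ = 1 ∧ ∀ x, x ∉ Δ → σ x = x}
  one_mem' := ⟨map_one _, fun _ _ => rfl⟩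
  mul_mem' := fun {a b} ha hb => ⟨by rw [map_mul, ha.1, hb.1, one_mul], fun x hx => by
    rw [Perm.mul_apply, hb.2 x hx, ha.2 x hx]⟩
  inv_mem' := fun {a} ha => ⟨by rw [map_inv, ha.1, inv_one], fun x hx => by
    rw [Perm.inv_eq_iff_eq, ha.2 x hx]⟩

theorem mem_A {n : ℕ} {Δ : Finset (Fin n)} {σ : Perm (Fin n)} :
    σ ∈ A Δ ↔ sign σ = 1 ∧ ∀ x, x ∉ Δ → σ x = x := Iff.rfl

/-- `K` behaves like a quasisimple `F*(H)` inside the ambient group `G`. -/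
structure QS {G : Type*} [Group G] (H K : Subgroup G) : Prop where
  le : K ≤ H
  norm : ∀ h ∈ H, ∀ k ∈ K, h * k * h⁻¹ ∈ K
  perf : ⁅K, K⁆ = K
  simp : ∀ X : Subgroup G, X ≤ K → (∀ k ∈ K, ∀ x ∈ X, k * x * k⁻¹ ∈ X) →
    X = K ∨ ∀ x ∈ X, ∀ k ∈ K, x * k = k * x
  cent : ∀ h ∈ H, (∀ k ∈ K, h * k = k * h) → h ∈ K
  ne : K ≠ ⊥

end Cfsg.Agent.Lib.H16AltDefs
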