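import Cfsg.Agent.Lib.H16A2Defs
import Cfsg.Agent.Lib.H16AltDefs

set_option autoImplicit false

namespace Cfsg.Agent.Lib.H16A2VInv

open Cfsg Subgroup Equiv Equiv.Perm Cfsg.Agent.Lib.H16A2Defs Cfsg.Agent.Lib.H16AltDefs

/-- PIECE VInv (1/2, Mathlib only).  The V-sets are permuted by `H`: `card_image_of_injective`; for `a = h a'` etc.
`swap (h a') (h b') * swap (h c') (h e') = h * (swap a' b' * swap c' e') * h⁻¹` (`Equiv.swap_apply_apply`, or `ext` + `swap_apply_def`). -/
theorem vset_image {n : ℕ} {H : Subgroup (Perm (Fin n))} {h : Perm (Fin n)} (hh : h ∈ H) {S : Finset (Fin n)}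
    (hS : Vset H S) : Vset H (S.image h) := by
  refine ⟨by rw [Finset.card_image_of_injective _ h.injective]; exact hS.1, ?_⟩
  intro a b c e ha hb hc he hab hac hae hbc hbe hce
  obtain ⟨a', ha', rfl⟩ := Finset.mem_image.mp ha
  obtain ⟨b', hb', rfl⟩ := Finset.mem_image.mp hb
  obtain ⟨c', hc', rfl⟩ := Finset.mem_image.mp hc
  obtain ⟨e', he', rfl⟩ := Finset.mem_image.mp he
  have := hS.2 a' b' c' e' ha' hb' hc' he' (fun h => hab (by rw [h])) (fun h => hac (by rw [h]))
    (fun h => hae (by rw [h])) (fun h => hbc (by rw [h])) (fun h => hbe (by rw [h]))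
    (fun h => hce (by rw [h]))
  have e1 : swap (h a') (h b') * swap (h c') (h e') = h * (swap a' b' * swap c' e') * h⁻¹ := by
    rw [swap_apply_apply, swap_apply_apply]; group
  rw [e1]
  exact H.mul_mem (H.mul_mem hh this) (H.inv_mem hh)

/-- PIECE VInv (2/2). -/
theorem inU_apply {n : ℕ} {H : Subgroup (Perm (Fin n))} {h : Perm (Fin n)} (hh : h ∈ H) {x : Fin n}
    (hx : InU H x) : InU H (h x) := by
  obtain ⟨S, hS, hxS⟩ := hx
  exact ⟨S.image h, vset_image hh hS, Finset.mem_image_of_mem _ hxS⟩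

end Cfsg.Agent.Lib.H16A2VInv
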