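import Cfsg.Agent.Lib.H16A2Defs
import Cfsg.Agent.Lib.H16AltDefs
import Cfsg.Agent.Lib.H16A2VInv

set_option autoImplicit false

namespace Cfsg.Agent.Lib.H16A2Calc

open Cfsg Subgroup Equiv Equiv.Perm Cfsg.Agent.Lib.H16A2Defs Cfsg.Agent.Lib.H16AltDefs

theorem ainv {n : ℕ} (g : Perm (Fin n)) (x : Fin n) : g (g⁻¹ x) = x := g.apply_symm_apply x

theorem inva {n : ℕ} (g : Perm (Fin n)) (x : Fin n) : g⁻¹ (g x) = x := g.symm_apply_apply x

theorem fix_mul {n : ℕ} {g h : Perm (Fin n)} {S : Finset (Fin n)} (hg : Fix g S) (hh : Fix h S) :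
    Fix (g * h) S := by
  intro x
  rw [Perm.mul_apply]
  exact (hh x).trans (hg (h x))

theorem fix_inv {n : ℕ} {g : Perm (Fin n)} {S : Finset (Fin n)} (hg : Fix g S) : Fix g⁻¹ S := by
  intro x
  have := hg (g⁻¹ x)
  rw [ainv] at this
  exact this.symm

theorem flip_fix {n : ℕ} {H : Subgroup (Perm (Fin n))} {g h : Perm (Fin n)} {S : Finset (Fin n)} (hhH : h ∈ H)
    (hg : Flip H g S) (hh : Fix h S) : Flip H (g * h) S := by
  intro x hx
  rw [Perm.mul_apply]
  exact (hh x).trans (hg (h x) (H16A2VInv.inU_apply hhH hx))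

theorem fix_flip {n : ℕ} {H : Subgroup (Perm (Fin n))} {g h : Perm (Fin n)} {S : Finset (Fin n)}
    (hg : Fix g S) (hh : Flip H h S) : Flip H (g * h) S := by
  intro x hx
  rw [Perm.mul_apply]
  exact (hh x hx).trans (not_congr (hg (h x)))

theorem flip_flip {n : ℕ} {H : Subgroup (Perm (Fin n))} {g h : Perm (Fin n)} {S : Finset (Fin n)}
    (hS : Vset H S) (hgH : g ∈ H) (hhH : h ∈ H) (hg : Flip H g S) (hh : Flip H h S) : Fix (g * h) S := by
  intro x
  by_cases hx : InU H x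
  · rw [Perm.mul_apply]
    have h1 := hh x hx
    have h2 := hg (h x) (H16A2VInv.inU_apply hhH hx)
    tauto
  · have h1 : x ∉ S := fun h => hx ⟨S, hS, h⟩
    have h2 : (g * h) x ∉ S := by
      intro hmem
      apply hx
      have := H16A2VInv.inU_apply (H.inv_mem (H.mul_mem hgH hhH)) (x := (g * h) x) ⟨S, hS, hmem⟩
      rwa [inva] at this
    tauto

theorem flip_inv {n : ℕ} {H : Subgroup (Perm (Fin n))} {g : Perm (Fin n)} {S : Finset (Fin n)} (hgH : g ∈ H)
    (hg : Flip H g S) : Flip H g⁻¹ S := by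
  intro x hx
  have := hg (g⁻¹ x) (H16A2VInv.inU_apply (H.inv_mem hgH) hx)
  rw [ainv] at this
  tauto

end Cfsg.Agent.Lib.H16A2Calc
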