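import Cfsg.Agent.Lib.H16A2Defs
import Cfsg.Agent.Lib.H16AltDefs
import Cfsg.Agent.Lib.H16A2VInv

set_option autoImplicit false

namespace Cfsg.Agent.Lib.H16A2Conj2

open Cfsg Subgroup Equiv Equiv.Perm Cfsg.Agent.Lib.H16A2Defs Cfsg.Agent.Lib.H16AltDefs

theorem ainv {n : ℕ} (g : Perm (Fin n)) (x : Fin n) : g (g⁻¹ x) = x := g.apply_symm_apply x

theorem inva {n : ℕ} (g : Perm (Fin n)) (x : Fin n) : g⁻¹ (g x) = x := g.symm_apply_apply x

theorem mem_image_inv {n : ℕ} (h : Perm (Fin n)) (S : Finset (Fin n)) (y : Fin n) :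
    y ∈ S.image ⇑h⁻¹ ↔ h y ∈ S := by
  rw [Finset.mem_image]
  constructor
  · rintro ⟨z, hz, rfl⟩
    rwa [ainv]
  · intro hy
    exact ⟨h y, hy, inva h y⟩

theorem fix_conj {n : ℕ} {h x : Perm (Fin n)} {S : Finset (Fin n)} (hx : Fix x (S.image ⇑h⁻¹)) :
    Fix (h * x * h⁻¹) S := by
  intro z
  have := hx (h⁻¹ z)
  rw [mem_image_inv, mem_image_inv, ainv] at this
  simpa [Perm.mul_apply] using this

theorem flip_conj {n : ℕ} {H : Subgroup (Perm (Fin n))} {h x : Perm (Fin n)} {S : Finset (Fin n)} (hh : h ∈ H)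
    (hx : Flip H x (S.image ⇑h⁻¹)) : Flip H (h * x * h⁻¹) S := by
  intro z hz
  have := hx (h⁻¹ z) (H16A2VInv.inU_apply (H.inv_mem hh) hz)
  rw [mem_image_inv, mem_image_inv, ainv] at this
  simpa [Perm.mul_apply] using this

end Cfsg.Agent.Lib.H16A2Conj2
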