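import Mathlib

set_option autoImplicit false

/-! Vocabulary for project 2928 (overgroups of a Sylow 2-subgroup of Alt(n) in Sym(n)). -/

namespace Cfsg.Agent.Lib.H16A2Defs

open Equiv Equiv.Perm

/-- `S` is a 4-set all of whose three double transpositions lie in `H`
(the support of a Klein four-group of `H` acting regularly on it). -/
def Vset {n : ℕ} (H : Subgroup (Perm (Fin n))) (S : Finset (Fin n)) : Prop :=
  S.card = 4 ∧ ∀ a b c e, a ∈ S → b ∈ S → c ∈ S → e ∈ S → a ≠ b → a ≠ c → a ≠ e → b ≠ c → b ≠ e →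
    c ≠ e → swap a b * swap c e ∈ H

/-- `h` stabilizes the set `S`. -/
def Fix {n : ℕ} (h : Perm (Fin n)) (S : Finset (Fin n)) : Prop := ∀ x, x ∈ S ↔ h x ∈ S

/-- `x` lies in the union of all V-sets of `H`. -/
def InU {n : ℕ} (H : Subgroup (Perm (Fin n))) (x : Fin n) : Prop := ∃ S, Vset H S ∧ x ∈ S

/-- `h` maps `S` onto its complement in the union of all V-sets of `H`. -/
def Flip {n : ℕ} (H : Subgroup (Perm (Fin n))) (h : Perm (Fin n)) (S : Finset (Fin n)) : Prop :=
  ∀ x, InU H x → (x ∈ S ↔ h x ∉ S)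

/-- `k` disjoint pairs `{a i, b i}` covering all points but at most one, such that all the double transpositions
`(a i, b i)(a j, b j)` lie in `H`. -/
structure Pairs {n : ℕ} (H : Subgroup (Perm (Fin n))) (k : ℕ) (a b : Fin k → Fin n) : Prop where
  inja : Function.Injective a
  injb : Function.Injective b
  ne : ∀ i j, a i ≠ b j
  mem : ∀ i j, i ≠ j → swap (a i) (b i) * swap (a j) (b j) ∈ H
  cover : n ≤ 2 * k + 1

/-- the product of the four transpositions `(a i, b i)`. -/
def zz {n : ℕ} (a b : Fin 4 → Fin n) : Perm (Fin n) :=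
  swap (a 0) (b 0) * swap (a 1) (b 1) * (swap (a 2) (b 2) * swap (a 3) (b 3))

end Cfsg.Agent.Lib.H16A2Defs
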