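import Cfsg.Agent.Lib.H16A2Defs
import Cfsg.Agent.Lib.H16AltDefs

set_option autoImplicit false

namespace Cfsg.Agent.Lib.H16A2One

open Cfsg Subgroup Equiv Equiv.Perm Cfsg.Agent.Lib.H16A2Defs Cfsg.Agent.Lib.H16AltDefs

/-- PIECE One (Mathlib only). -/
theorem one_common {n : ℕ} {H : Subgroup (Perm (Fin n))} {S : Finset (Fin n)} (hS : Vset H S)
    {x y u w : Fin n} (hxy : x ≠ y) (hxu : x ≠ u) (hxw : x ≠ w) (hyu : y ≠ u) (hyw : y ≠ w) (huw : u ≠ w)
    (hd : swap x y * swap u w ∈ H) (hx : x ∈ S) (hy : y ∉ S) (hu : u ∉ S) (hw : w ∉ S) :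
    ∃ c ∈ H, c.IsThreeCycle := by
  have hc3 : (S.erase x).card = 3 := by rw [Finset.card_erase_of_mem hx, hS.1]
  obtain ⟨q, r, r', hqr, hqr', hrr', hE⟩ := Finset.card_eq_three.mp hc3
  have hq : q ∈ S.erase x := by rw [hE]; simp
  have hr : r ∈ S.erase x := by rw [hE]; simp
  have hr' : r' ∈ S.erase x := by rw [hE]; simp
  rw [Finset.mem_erase] at hq hr hr'
  have hv : swap x q * swap r r' ∈ H :=
    hS.2 x q r r' hx hq.2 hr.2 hr'.2 hq.1.symm hr.1.symm hr'.1.symm hqr hqr' hrr'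
  have ne_of : ∀ {s t : Fin n}, s ∈ S → t ∉ S → t ≠ s := fun hs ht h => ht (h ▸ hs)
  set v := swap x q * swap r r' with hvdef
  have hvx : v x = q := by
    rw [hvdef, Perm.mul_apply, swap_apply_of_ne_of_ne hr.1.symm hr'.1.symm, swap_apply_left]
  have hvout : ∀ t, t ∉ S → v t = t := by
    intro t ht
    rw [hvdef, Perm.mul_apply, swap_apply_of_ne_of_ne (ne_of hr.2 ht) (ne_of hr'.2 ht),
      swap_apply_of_ne_of_ne (ne_of hx ht) (ne_of hq.2 ht)]
  have h1 : v * (swap x y * swap u w) * v⁻¹ = swap q y * swap u w := by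
    have : v * (swap x y * swap u w) * v⁻¹ = (v * swap x y * v⁻¹) * (v * swap u w * v⁻¹) := by group
    rw [this, ← swap_apply_apply, ← swap_apply_apply, hvx, hvout y hy, hvout u hu, hvout w hw]
  have h2 : swap u w * swap x y * (swap u w)⁻¹ = swap x y := by
    rw [← swap_apply_apply, swap_apply_of_ne_of_ne hxu hxw, swap_apply_of_ne_of_ne hyu hyw]
  refine ⟨v * (swap x y * swap u w) * v⁻¹ * (swap x y * swap u w),
    H.mul_mem (H.mul_mem (H.mul_mem hv hd) (H.inv_mem hv)) hd, ?_⟩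
  have h3 : v * (swap x y * swap u w) * v⁻¹ * (swap x y * swap u w) = swap y q * swap y x := by
    rw [h1, swap_comm y q, swap_comm y x]
    calc swap q y * swap u w * (swap x y * swap u w)
        = swap q y * (swap u w * swap x y * (swap u w)⁻¹) := by rw [swap_inv]; group
      _ = swap q y * swap x y := by rw [h2]
  rw [h3]
  exact isThreeCycle_swap_mul_swap_same (ne_of hq.2 hy) hxy.symm hq.1

end Cfsg.Agent.Lib.H16A2One
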