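import Cfsg.Agent.Lib.H16A2Defs
import Cfsg.Agent.Lib.H16AltDefs

set_option autoImplicit false

namespace Cfsg.Agent.Lib.H16A2Three

open Cfsg Subgroup Equiv Equiv.Perm Cfsg.Agent.Lib.H16A2Defs Cfsg.Agent.Lib.H16AltDefs

/-- PIECE Three (Mathlib only).  `S = {y, u, w, e}` (`((S.erase y).erase u).erase w` has one element `e`); `v := swap y e * swap u w ∈ H` (`hS.2`);
`c := v * d = swap y e * swap u w * (swap x y * swap u w) = swap y e * swap x y` (`swap u w` commutes with `swap x y`, and squares to 1),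
a 3-cycle (`Equiv.Perm.isThreeCycle_swap_mul_swap_same` after `swap_comm`; `e ≠ x` as `e ∈ S`, `x ∉ S`). -/
theorem three_common {n : ℕ} {H : Subgroup (Perm (Fin n))} {S : Finset (Fin n)} (hS : Vset H S)
    {x y u w : Fin n} (hxy : x ≠ y) (hxu : x ≠ u) (hxw : x ≠ w) (hyu : y ≠ u) (hyw : y ≠ w) (huw : u ≠ w)
    (hd : swap x y * swap u w ∈ H) (hx : x ∉ S) (hy : y ∈ S) (hu : u ∈ S) (hw : w ∈ S) :
    ∃ c ∈ H, c.IsThreeCycle := by
  have hcard : (((S.erase y).erase u).erase w).card = 1 := by
    rw [Finset.card_erase_of_mem, Finset.card_erase_of_mem, Finset.card_erase_of_mem hy, hS.1]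
    · simp [hu, hyu.symm]
    · simp [hw, hyw.symm, huw.symm]
  obtain ⟨e, he⟩ := Finset.card_eq_one.mp hcard
  have hemem : e ∈ ((S.erase y).erase u).erase w := by rw [he]; simp
  simp only [Finset.mem_erase] at hemem
  obtain ⟨hew, heu, hey, heS⟩ := hemem
  have hex : e ≠ x := fun h => hx (h ▸ heS)
  have hv : swap y e * swap u w ∈ H := hS.2 y e u w hy heS hu hw hey.symm hyu hyw heu hew huw
  refine ⟨swap y e * swap u w * (swap x y * swap u w), H.mul_mem hv hd, ?_⟩
  have hc : Commute (swap u w) (swap x y) := (disjoint_swap_swap (by simp [*])).commute.symm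
  have : swap y e * swap u w * (swap x y * swap u w) = swap y e * swap y x := by
    rw [hc.mul_mul_mul_comm, swap_mul_self, mul_one, swap_comm x y]
  rw [this]
  exact isThreeCycle_swap_mul_swap_same hey.symm hxy.symm hex

end Cfsg.Agent.Lib.H16A2Three
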