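import Cfsg.Agent.Lib.H16A2Defs
import Cfsg.Agent.Lib.H16AltDefs
import Cfsg.Agent.Lib.H16A2One
import Cfsg.Agent.Lib.H16A2Three

set_option autoImplicit false

namespace Cfsg.Agent.Lib.H16A2Par

open Cfsg Subgroup Equiv Equiv.Perm Cfsg.Agent.Lib.H16A2Defs Cfsg.Agent.Lib.H16AltDefs

theorem swap_comm_disj {n : ℕ} {x y u w : Fin n} (hxu : x ≠ u) (hxw : x ≠ w) (hyu : y ≠ u) (hyw : y ≠ w) :
    swap x y * swap u w = swap u w * swap x y := by
  ext z
  simp only [Perm.mul_apply]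
  by_cases h1 : z = x
  · subst h1
    rw [swap_apply_of_ne_of_ne hxu hxw, swap_apply_left, swap_apply_of_ne_of_ne hyu hyw]
  · by_cases h2 : z = y
    · subst h2
      rw [swap_apply_of_ne_of_ne hyu hyw, swap_apply_right, swap_apply_of_ne_of_ne hxu hxw]
    · rw [swap_apply_of_ne_of_ne h1 h2]
      by_cases h3 : z = u
      · subst h3
        rw [swap_apply_left, swap_apply_of_ne_of_ne hxw.symm hyw.symm]
      · by_cases h4 : z = w
        · subst h4
          rw [swap_apply_right, swap_apply_of_ne_of_ne hxu.symm hyu.symm]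
        · rw [swap_apply_of_ne_of_ne h3 h4, swap_apply_of_ne_of_ne h1 h2]

theorem parity {n : ℕ} {H : Subgroup (Perm (Fin n))} (hno : ∀ c ∈ H, ¬ c.IsThreeCycle) {S : Finset (Fin n)}
    (hS : Vset H S) {x y u w : Fin n} (hxy : x ≠ y) (hxu : x ≠ u) (hxw : x ≠ w) (hyu : y ≠ u) (hyw : y ≠ w)
    (huw : u ≠ w) (hd : swap x y * swap u w ∈ H) : ((x ∈ S ↔ y ∈ S) ↔ (u ∈ S ↔ w ∈ S)) := by
  have hno' : ¬ ∃ c ∈ H, c.IsThreeCycle := by
    rintro ⟨c, hc, h3⟩
    exact hno c hc h3
  have d1 : swap y x * swap u w ∈ H := by rw [swap_comm y x]; exact hd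
  have d2 : swap u w * swap x y ∈ H := by rw [← swap_comm_disj hxu hxw hyu hyw]; exact hd
  have d3 : swap w u * swap x y ∈ H := by rw [swap_comm w u]; exact d2
  by_cases hx : x ∈ S <;> by_cases hy : y ∈ S <;> by_cases hu : u ∈ S <;> by_cases hw : w ∈ S
  · simp [*]
  · exact absurd (H16A2Three.three_common hS huw.symm hxw.symm hyw.symm hxu.symm hyu.symm hxy d3 hw hu hx hy) hno'
  · exact absurd (H16A2Three.three_common hS huw hxu.symm hyu.symm hxw.symm hyw.symm hxy d2 hu hw hx hy) hno'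
  · simp [*]
  · exact absurd (H16A2Three.three_common hS hxy.symm hyu hyw hxu hxw huw d1 hy hx hu hw) hno'
  · simp [*]
  · simp [*]
  · exact absurd (H16A2One.one_common hS hxy hxu hxw hyu hyw huw hd hx hy hu hw) hno'
  · exact absurd (H16A2Three.three_common hS hxy hxu hxw hyu hyw huw hd hx hy hu hw) hno'
  · simp [*]
  · simp [*]
  · exact absurd (H16A2One.one_common hS hxy.symm hyu hyw hxu hxw huw d1 hy hx hu hw) hno'
  · simp [*]
  · exact absurd (H16A2One.one_common hS huw hxu.symm hyu.symm hxw.symm hyw.symm hxy d2 hu hw hx hy) hno'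
  · exact absurd (H16A2One.one_common hS huw.symm hxw.symm hyw.symm hxu.symm hyu.symm hxy d3 hw hu hx hy) hno'
  · simp [*]

end Cfsg.Agent.Lib.H16A2Par
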