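import Cfsg.Agent.Lib.H16A2Defs
import Cfsg.Agent.Lib.H16AltDefs
import Cfsg.Agent.Lib.H16A2Par

set_option autoImplicit false

namespace Cfsg.Agent.Lib.H16A2Str5

open Cfsg Subgroup Equiv Equiv.Perm Cfsg.Agent.Lib.H16A2Defs Cfsg.Agent.Lib.H16AltDefs

/-- PIECE Str5.  With at least 5 pairs every V-set is a union of pairs. -/
theorem even_of_five {n k : ℕ} {H : Subgroup (Perm (Fin n))} {a b : Fin k → Fin n}
    (hno : ∀ c ∈ H, ¬ c.IsThreeCycle) (hP : Pairs H k a b) (hk : 5 ≤ k) {S : Finset (Fin n)} (hS : Vset H S)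
    (i : Fin k) : (a i ∈ S ↔ b i ∈ S) := by
  classical
  by_contra hi
  have hall : ∀ j, ¬ (a j ∈ S ↔ b j ∈ S) := by
    intro j
    by_cases hij : i = j
    · rw [← hij]; exact hi
    · have hp := Cfsg.Agent.Lib.H16A2Par.parity hno hS (hP.ne i i) (fun h => hij (hP.inja h)) (hP.ne i j)
        (fun h => hP.ne j i h.symm) (fun h => hij (hP.injb h)) (hP.ne j j) (hP.mem i j hij)
      rw [← hp]; exact hi
  -- an injective map into S
  let f : Fin k → Fin n := fun j => if a j ∈ S then a j else b j
  have hfS : ∀ j, f j ∈ S := by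
    intro j
    by_cases h1 : a j ∈ S
    · simp only [f, if_pos h1]; exact h1
    · simp only [f, if_neg h1]
      by_contra h2
      exact hall j ⟨fun h => absurd h h1, fun h => absurd h h2⟩
  have hfinj : Function.Injective f := by
    intro j l hjl
    by_cases h1 : a j ∈ S <;> by_cases h2 : a l ∈ S
    · simp only [f, if_pos h1, if_pos h2] at hjl; exact hP.inja hjl
    · simp only [f, if_pos h1, if_neg h2] at hjl; exact absurd hjl (hP.ne j l)
    · simp only [f, if_neg h1, if_pos h2] at hjl; exact absurd hjl.symm (hP.ne l j)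
    · simp only [f, if_neg h1, if_neg h2] at hjl; exact hP.injb hjl
  have hcard : (Finset.univ.image f).card ≤ S.card := by
    apply Finset.card_le_card
    intro w hw
    obtain ⟨j, _, rfl⟩ := Finset.mem_image.1 hw
    exact hfS j
  rw [Finset.card_image_of_injective _ hfinj, Finset.card_univ, Fintype.card_fin, hS.1] at hcard
  omega

end Cfsg.Agent.Lib.H16A2Str5
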