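import Cfsg.Agent.Lib.H16A2Defs
import Cfsg.Agent.Lib.H16AltDefs
import Cfsg.Agent.Lib.H16A2Str5

set_option autoImplicit false

namespace Cfsg.Agent.Lib.H16A2EX

open Cfsg Subgroup Equiv Equiv.Perm Cfsg.Agent.Lib.H16A2Defs Cfsg.Agent.Lib.H16AltDefs

theorem pair_fix {n k : ℕ} {H : Subgroup (Perm (Fin n))} {a b : Fin k → Fin n}
    (hno : ∀ c ∈ H, ¬ c.IsThreeCycle) (hP : Pairs H k a b) (hk : 5 ≤ k) {S : Finset (Fin n)} (hS : Vset H S)
    (i j : Fin k) (hij : i ≠ j) : Fix (swap (a i) (b i) * swap (a j) (b j)) S := by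
  have hi := H16A2Str5.even_of_five hno hP hk hS i
  have hj := H16A2Str5.even_of_five hno hP hk hS j
  have haa : a i ≠ a j := fun h => hij (hP.inja h)
  have hbb : b i ≠ b j := fun h => hij (hP.injb h)
  intro x
  rw [Perm.mul_apply]
  by_cases h1 : x = a j
  · subst h1
    rw [swap_apply_left, swap_apply_of_ne_of_ne (hP.ne i j).symm hbb.symm]
    exact hj
  · by_cases h2 : x = b j
    · subst h2
      rw [swap_apply_right, swap_apply_of_ne_of_ne haa.symm (hP.ne j i)]
      exact hj.symm
    · rw [swap_apply_of_ne_of_ne h1 h2]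
      by_cases h3 : x = a i
      · subst h3
        rw [swap_apply_left]
        exact hi
      · by_cases h4 : x = b i
        · subst h4
          rw [swap_apply_right]
          exact hi.symm
        · rw [swap_apply_of_ne_of_ne h3 h4]

end Cfsg.Agent.Lib.H16A2EX
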