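import Cfsg.Agent.Lib.H16A2Defs
import Cfsg.Agent.Lib.H16AltDefs


set_option autoImplicit false

namespace Cfsg.Agent.Lib.H16A2Out

open Cfsg Subgroup Equiv Equiv.Perm Cfsg.Agent.Lib.H16A2Defs Cfsg.Agent.Lib.H16AltDefs

theorem out_unique {n k : ℕ} {H : Subgroup (Perm (Fin n))} {a b : Fin k → Fin n} (hP : Pairs H k a b)
    (x y : Fin n) (hx : ∀ i, x ≠ a i ∧ x ≠ b i) (hy : ∀ i, y ≠ a i ∧ y ≠ b i) : x = y := by
  classical
  by_contra hxy
  set T := (Finset.univ.image a) ∪ (Finset.univ.image b) with hT
  have hdisj : Disjoint (Finset.univ.image a) (Finset.univ.image b) := by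
    rw [Finset.disjoint_left]
    intro z hz hz'
    obtain ⟨i, -, rfl⟩ := Finset.mem_image.mp hz
    obtain ⟨j, -, hj⟩ := Finset.mem_image.mp hz'
    exact hP.ne i j hj.symm
  have hcard : T.card = 2 * k := by
    rw [hT, Finset.card_union_of_disjoint hdisj, Finset.card_image_of_injective _ hP.inja,
      Finset.card_image_of_injective _ hP.injb, Finset.card_univ, Fintype.card_fin]
    ring
  have hmemT : ∀ z, (∀ i, z ≠ a i ∧ z ≠ b i) → z ∉ T := by
    intro z hz hzT
    rcases Finset.mem_union.mp hzT with h | h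
    · obtain ⟨i, -, hi⟩ := Finset.mem_image.mp h
      exact (hz i).1 hi.symm
    · obtain ⟨i, -, hi⟩ := Finset.mem_image.mp h
      exact (hz i).2 hi.symm
  have h1 : (insert x (insert y T)).card = 2 * k + 2 := by
    rw [Finset.card_insert_of_notMem, Finset.card_insert_of_notMem (hmemT y hy), hcard]
    rw [Finset.mem_insert]
    rintro (h | h)
    · exact hxy h
    · exact hmemT x hx h
  have h2 : (insert x (insert y T)).card ≤ n := by
    have := Finset.card_le_univ (insert x (insert y T))
    rwa [Fintype.card_fin] at this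
  have := hP.cover
  omega

theorem eq_one_of_fix {n k : ℕ} {H : Subgroup (Perm (Fin n))} {a b : Fin k → Fin n} (hP : Pairs H k a b)
    (σ : Perm (Fin n)) (ha : ∀ i, σ (a i) = a i) (hb : ∀ i, σ (b i) = b i) : σ = 1 := by
  ext x
  rw [Perm.one_apply]
  congr 1
  by_cases hx : ∀ i, x ≠ a i ∧ x ≠ b i
  · apply out_unique hP _ _ _ hx
    intro i
    constructor
    · intro h
      apply (hx i).1
      apply σ.injective
      rw [h, ha]
    · intro h
      apply (hx i).2
      apply σ.injective
      rw [h, hb]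
  · push Not at hx
    obtain ⟨i, hi⟩ := hx
    by_cases h : x = a i
    · rw [h, ha]
    · rw [hi h, hb]

end Cfsg.Agent.Lib.H16A2Out
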