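import Cfsg.Agent.Lib.H16AltDefs

set_option autoImplicit false

namespace Cfsg.Agent.Lib.H16AltInj

open Cfsg Subgroup Equiv Equiv.Perm Cfsg.Agent.Lib.H16AltDefs

/-- the 3-cycle `(x y z)` lies in `A Δ` -/
theorem three_mem {n : ℕ} {Δ : Finset (Fin n)} {x y z : Fin n} (hx : x ∈ Δ) (hy : y ∈ Δ) (hz : z ∈ Δ)
    (hxy : x ≠ y) (hxz : x ≠ z) (hyz : y ≠ z) : swap x y * swap y z ∈ A Δ := by
  rw [mem_A]
  refine ⟨?_, ?_⟩
  · rw [map_mul, sign_swap hxy, sign_swap hyz]; rfl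
  · intro w hw
    have h1 : w ≠ x := fun h => hw (h ▸ hx)
    have h2 : w ≠ y := fun h => hw (h ▸ hy)
    have h3 : w ≠ z := fun h => hw (h ▸ hz)
    rw [Perm.mul_apply, swap_apply_of_ne_of_ne h2 h3, swap_apply_of_ne_of_ne h1 h2]

/-- PIECE Inj (Mathlib only). -/
theorem subset_of_le {n : ℕ} {Δ Δ' : Finset (Fin n)} (h3 : 3 ≤ Δ.card) (h : A Δ ≤ A Δ') : Δ ⊆ Δ' := by
  intro x hx
  have h1 : 2 ≤ (Δ.erase x).card := by
    rw [Finset.card_erase_of_mem hx]; omega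
  obtain ⟨y, hy, z, hz, hyz⟩ := Finset.one_lt_card.1 (by omega : 1 < (Δ.erase x).card)
  rw [Finset.mem_erase] at hy hz
  have hm := h (three_mem hx hy.2 hz.2 hy.1.symm hz.1.symm hyz)
  by_contra hx'
  have h2 := hm.2 x hx'
  rw [Perm.mul_apply, swap_apply_of_ne_of_ne hy.1.symm hz.1.symm, swap_apply_left] at h2
  exact hy.1 h2

end Cfsg.Agent.Lib.H16AltInj
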