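import Cfsg.Agent.Lib.H16A2Defs
import Cfsg.Agent.Lib.H16AltDefs
import Cfsg.Agent.Lib.H16AltInj

set_option autoImplicit false

namespace Cfsg.Agent.Lib.H16A2Stab

open Cfsg Subgroup Equiv Equiv.Perm Cfsg.Agent.Lib.H16A2Defs Cfsg.Agent.Lib.H16AltDefs

/-- PIECE Stab.  A permutation normalizing `A Δ` (`|Δ| ≥ 3`) stabilizes `Δ`. -/
theorem fix_of_norm {n : ℕ} {Δ : Finset (Fin n)} (h3 : 3 ≤ Δ.card) (h : Perm (Fin n))
    (hnorm : ∀ a ∈ A Δ, h * a * h⁻¹ ∈ A Δ) : Fix h Δ := by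
  have key : ∀ x ∈ Δ, h x ∈ Δ := by
    intro x hx
    by_contra hhx
    have h1 : 1 < (Δ.erase x).card := by
      rw [Finset.card_erase_of_mem hx]; omega
    obtain ⟨y, hy, z, hz, hyz⟩ := Finset.one_lt_card.1 h1
    rw [Finset.mem_erase] at hy hz
    have hm := hnorm _ (Cfsg.Agent.Lib.H16AltInj.three_mem hx hy.2 hz.2 hy.1.symm hz.1.symm hyz)
    have h2 := (mem_A.1 hm).2 (h x) hhx
    have h0 : h⁻¹ (h x) = x := by simp
    simp only [Perm.mul_apply] at h2
    rw [h0] at h2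
    rw [swap_apply_of_ne_of_ne hy.1.symm hz.1.symm, swap_apply_left] at h2
    exact hy.1 (h.injective h2)
  have himg : Δ.image h = Δ := by
    apply Finset.eq_of_subset_of_card_le
    · intro w hw
      obtain ⟨x, hx, rfl⟩ := Finset.mem_image.1 hw
      exact key x hx
    · rw [Finset.card_image_of_injective _ h.injective]
  intro x
  constructor
  · exact key x
  · intro hx
    rw [← himg] at hx
    obtain ⟨w, hw, hwx⟩ := Finset.mem_image.1 hx
    rw [← h.injective hwx]; exact hw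

end Cfsg.Agent.Lib.H16A2Stab
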