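import Cfsg.Agent.Lib.H16A2Defs
import Cfsg.Agent.Lib.H16AltDefs
import Cfsg.Agent.Lib.H16A2Stab
import Cfsg.Agent.Lib.H16A2Out

set_option autoImplicit false

namespace Cfsg.Agent.Lib.H16A2Fin

open Cfsg Subgroup Equiv Equiv.Perm Cfsg.Agent.Lib.H16A2Defs Cfsg.Agent.Lib.H16AltDefs

private theorem t_vals {n k : ℕ} {H : Subgroup (Perm (Fin n))} {a b : Fin k → Fin n}
    (hP : Pairs H k a b) {i j : Fin k} (hij : i ≠ j) :
    (swap (a i) (b i) * swap (a j) (b j)) (a i) = b i ∧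
    (swap (a i) (b i) * swap (a j) (b j)) (b i) = a i ∧
    (swap (a i) (b i) * swap (a j) (b j)) (a j) = b j ∧
    (swap (a i) (b i) * swap (a j) (b j)) (b j) = a j ∧
    ∀ z, z ≠ a i → z ≠ b i → z ≠ a j → z ≠ b j →
      (swap (a i) (b i) * swap (a j) (b j)) z = z := by
  have h1 : a i ≠ a j := fun h => hij (hP.inja h)
  have h2 : b i ≠ b j := fun h => hij (hP.injb h)
  have h3 : a i ≠ b j := hP.ne i j
  have h4 : a j ≠ b i := hP.ne j i
  refine ⟨?_, ?_, ?_, ?_, ?_⟩
  · rw [Perm.mul_apply, swap_apply_of_ne_of_ne h1 h3, swap_apply_left]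
  · rw [Perm.mul_apply, swap_apply_of_ne_of_ne h4.symm h2, swap_apply_right]
  · rw [Perm.mul_apply, swap_apply_left, swap_apply_of_ne_of_ne h3.symm h2.symm]
  · rw [Perm.mul_apply, swap_apply_right, swap_apply_of_ne_of_ne h1.symm h4]
  · intro z z1 z2 z3 z4
    rw [Perm.mul_apply, swap_apply_of_ne_of_ne z3 z4, swap_apply_of_ne_of_ne z1 z2]

/-- PIECE Fin.  Suppose `Δ.card + 4 ≤ n`: `R = Δᶜ` has ≥ 4 points, at most one outside the pairs (`H16A2Out.out_unique`).  Take `x ∈ R` in a pair `i`,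
and `y ∈ R` in a pair `j ≠ i` (R has ≥ 3 points in the pairs, the pair `i` only 2).  `t := (a i, b i)(a j, b j) ∈ H` normalizes `K = A Δ` (`hQS.norm`), so
`Fix t Δ` (`H16A2Stab.fix_of_norm`); as `t` exchanges `a i ↔ b i`, `a j ↔ b j`, all four points are outside `Δ`.  So `t` is disjoint from every
`k ∈ A Δ` (which fixes the points outside `Δ`; `t` fixes the others), they commute, `t ∈ K = A Δ` by `hQS.cent`, so `t (a i) = a i`: false. -/
theorem card_bound {n k : ℕ} {H K : Subgroup (Perm (Fin n))} {a b : Fin k → Fin n} (hQS : QS H K)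
    {Δ : Finset (Fin n)} (hK : K = A Δ) (h5 : 5 ≤ Δ.card) (hP : Pairs H k a b) : n ≤ Δ.card + 3 := by
  classical
  by_contra hcon
  have hcon : Δ.card + 4 ≤ n := by omega
  have hR : 4 ≤ (Δᶜ).card := by
    rw [Finset.card_compl, Fintype.card_fin]; omega
  -- points of R outside the pairs
  set Ro := (Δᶜ).filter (fun z => ∀ i, z ≠ a i ∧ z ≠ b i) with hRo
  set Ri := (Δᶜ).filter (fun z => ¬ ∀ i, z ≠ a i ∧ z ≠ b i) with hRi
  have hsum : Ro.card + Ri.card = (Δᶜ).card := Finset.card_filter_add_card_filter_not _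
  have hRo1 : Ro.card ≤ 1 := by
    rw [Finset.card_le_one]
    intro x hx y hy
    exact H16A2Out.out_unique hP x y (Finset.mem_filter.1 hx).2 (Finset.mem_filter.1 hy).2
  have hRi3 : 3 ≤ Ri.card := by omega
  obtain ⟨x, hx⟩ : Ri.Nonempty := Finset.card_pos.1 (by omega)
  have hx' := Finset.mem_filter.1 hx
  obtain ⟨i, hi⟩ := not_forall.1 hx'.2
  have hRi2 : 0 < (Ri \ {a i, b i}).card := by
    have h1 := Finset.le_card_sdiff ({a i, b i} : Finset (Fin n)) Ri
    have h2 : ({a i, b i} : Finset (Fin n)).card ≤ 2 := Finset.card_le_two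
    omega
  obtain ⟨y, hy⟩ := Finset.card_pos.1 hRi2
  have hy1 := Finset.mem_sdiff.1 hy
  have hy' := Finset.mem_filter.1 hy1.1
  obtain ⟨j, hj⟩ := not_forall.1 hy'.2
  have hyi : y ≠ a i ∧ y ≠ b i := by
    have := hy1.2
    simp only [Finset.mem_insert, Finset.mem_singleton, not_or] at this
    exact this
  have hij : i ≠ j := by
    rintro rfl
    exact hj hyi
  have hxΔ : x ∉ Δ := Finset.mem_compl.1 hx'.1
  have hyΔ : y ∉ Δ := Finset.mem_compl.1 hy'.1
  obtain ⟨t1, t2, t3, t4, t5⟩ := t_vals hP hij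
  set t := swap (a i) (b i) * swap (a j) (b j) with ht
  have htH : t ∈ H := hP.mem i j hij
  have hfix : Fix t Δ := H16A2Stab.fix_of_norm (by omega) t (fun c hc => by
    rw [← hK] at hc ⊢
    exact hQS.norm t htH c hc)
  have hai : a i ∉ Δ ∧ b i ∉ Δ := by
    have e1 := hfix (a i)
    rw [t1] at e1
    by_cases hxa : x = a i
    · rw [hxa] at hxΔ
      exact ⟨hxΔ, fun h => hxΔ (e1.2 h)⟩
    · have hxb : x = b i := by
        by_contra hxb
        exact hi ⟨hxa, hxb⟩
      rw [hxb] at hxΔ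
      exact ⟨fun h => hxΔ (e1.1 h), hxΔ⟩
  have haj : a j ∉ Δ ∧ b j ∉ Δ := by
    have e1 := hfix (a j)
    rw [t3] at e1
    by_cases hxa : y = a j
    · rw [hxa] at hyΔ
      exact ⟨hyΔ, fun h => hyΔ (e1.2 h)⟩
    · have hxb : y = b j := by
        by_contra hxb
        exact hj ⟨hxa, hxb⟩
      rw [hxb] at hyΔ
      exact ⟨fun h => hyΔ (e1.1 h), hyΔ⟩
  have htΔ : ∀ z ∈ Δ, t z = z := by
    intro z hz
    apply t5
    · rintro rfl; exact hai.1 hz
    · rintro rfl; exact hai.2 hz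
    · rintro rfl; exact haj.1 hz
    · rintro rfl; exact haj.2 hz
  have hcomm : ∀ c ∈ K, t * c = c * t := by
    intro c hc
    rw [hK] at hc
    have hc2 := (mem_A.1 hc).2
    apply Equiv.ext
    intro z
    show t (c z) = c (t z)
    by_cases hz : z ∈ Δ
    · have hcz : c z ∈ Δ := by
        by_contra hcz
        have := hc2 _ hcz
        have h2 := c.injective this
        rw [h2] at hcz
        exact hcz hz
      rw [htΔ z hz, htΔ _ hcz]
    · have htz : t z ∉ Δ := fun h => hz ((hfix z).2 h)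
      rw [hc2 z hz, hc2 _ htz]
  have htK : t ∈ K := hQS.cent t htH hcomm
  rw [hK] at htK
  have := (mem_A.1 htK).2 (a i) hai.1
  rw [t1] at this
  exact hP.ne i i this.symm

end Cfsg.Agent.Lib.H16A2Fin
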