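import Cfsg.Agent.Lib.H16A2Defs
import Cfsg.Agent.Lib.H16AltDefs
import Cfsg.Agent.Lib.H16A2Par

set_option autoImplicit false

namespace Cfsg.Agent.Lib.H16A2Str4a

open Cfsg Subgroup Equiv Equiv.Perm Cfsg.Agent.Lib.H16A2Defs Cfsg.Agent.Lib.H16AltDefs

/-- PIECE Str4a.  By `H16A2Par.parity` (with `d = hP.mem i j`) the truth value of `(a j ∈ S ↔ b j ∈ S)` does not depend on `j`;
`¬ (p ↔ q) ↔ (p ↔ ¬ q)` (`tauto`/`not_iff`). -/
theorem dichotomy {n : ℕ} {H : Subgroup (Perm (Fin n))} {a b : Fin 4 → Fin n}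
    (hno : ∀ c ∈ H, ¬ c.IsThreeCycle) (hP : Pairs H 4 a b) {S : Finset (Fin n)} (hS : Vset H S) :
    (∀ i, (a i ∈ S ↔ b i ∈ S)) ∨ (∀ i, (a i ∈ S ↔ b i ∉ S)) := by
  have key : ∀ i j : Fin 4, ((a i ∈ S ↔ b i ∈ S) ↔ (a j ∈ S ↔ b j ∈ S)) := by
    intro i j
    by_cases hij : i = j
    · subst hij; exact Iff.rfl
    · exact H16A2Par.parity hno hS (hP.ne i i) (fun e => hij (hP.inja e)) (hP.ne i j)
        (hP.ne j i).symm (fun e => hij (hP.injb e)) (hP.ne j j) (hP.mem i j hij)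
  by_cases h0 : (a 0 ∈ S ↔ b 0 ∈ S)
  · left
    intro i
    exact (key 0 i).1 h0
  · right
    intro i
    have : ¬ (a i ∈ S ↔ b i ∈ S) := fun h => h0 ((key 0 i).2 h)
    tauto

end Cfsg.Agent.Lib.H16A2Str4a
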