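import Cfsg.Agent.Lib.H16A2Defs
import Cfsg.Agent.Lib.H16AltDefs
import Cfsg.Agent.Lib.H16A2Str4a
import Cfsg.Agent.Lib.H16A2Out

set_option autoImplicit false

namespace Cfsg.Agent.Lib.H16A2Str4b

open Cfsg Subgroup Equiv Equiv.Perm Cfsg.Agent.Lib.H16A2Defs Cfsg.Agent.Lib.H16AltDefs

/-- PIECE Str4b.  A V-set contains no point outside the 4 pairs.  Suppose `x ∈ S` is outside.  By `H16A2Out.out_unique` the 3 points of `S.erase x`
lie in the pairs.  `H16A2Str4a.dichotomy`: in the second case `S` contains one point of each of the 4 pairs and `x`: 5 points.  In the first case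
`S.erase x = {p, q, r}` is closed under the fixed point free involution `a i ↔ b i`: partner(p) ∈ {q, r}, say `q`; then partner(r) ∈ {p, q}
is impossible (partner is injective). -/
theorem sub_pairs {n : ℕ} {H : Subgroup (Perm (Fin n))} {a b : Fin 4 → Fin n}
    (hno : ∀ c ∈ H, ¬ c.IsThreeCycle) (hP : Pairs H 4 a b) {S : Finset (Fin n)} (hS : Vset H S) :
    ∀ x ∈ S, ∃ i, x = a i ∨ x = b i := by
  classical
  intro x hxS
  by_contra hx
  have hx' : ∀ i, x ≠ a i ∧ x ≠ b i := by
    intro i
    constructor
    · intro h; exact hx ⟨i, Or.inl h⟩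
    · intro h; exact hx ⟨i, Or.inr h⟩
  have hcard : (S.erase x).card = 3 := by
    rw [Finset.card_erase_of_mem hxS, hS.1]
  have hin : ∀ y ∈ S.erase x, ∃ i, y = a i ∨ y = b i := by
    intro y hy
    by_contra hy'
    have hy'' : ∀ i, y ≠ a i ∧ y ≠ b i := by
      intro i
      constructor
      · intro h; exact hy' ⟨i, Or.inl h⟩
      · intro h; exact hy' ⟨i, Or.inr h⟩
    exact (Finset.mem_erase.1 hy).1 (H16A2Out.out_unique hP y x hy'' hx')
  rcases H16A2Str4a.dichotomy hno hP hS with h1 | h2
  · set I := (Finset.univ : Finset (Fin 4)).filter (fun i => a i ∈ S) with hI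
    have hE : S.erase x = I.image a ∪ I.image b := by
      ext y
      constructor
      · intro hy
        have hyS := (Finset.mem_erase.1 hy).2
        obtain ⟨i, hi | hi⟩ := hin y hy
        · apply Finset.mem_union_left
          rw [hi] at hyS ⊢
          exact Finset.mem_image_of_mem a (Finset.mem_filter.2 ⟨Finset.mem_univ _, hyS⟩)
        · apply Finset.mem_union_right
          rw [hi] at hyS ⊢
          exact Finset.mem_image_of_mem b (Finset.mem_filter.2 ⟨Finset.mem_univ _, (h1 i).2 hyS⟩)
      · intro hy
        rcases Finset.mem_union.1 hy with hy | hy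
        · obtain ⟨i, hi, rfl⟩ := Finset.mem_image.1 hy
          exact Finset.mem_erase.2 ⟨(hx' i).1.symm, (Finset.mem_filter.1 hi).2⟩
        · obtain ⟨i, hi, rfl⟩ := Finset.mem_image.1 hy
          exact Finset.mem_erase.2 ⟨(hx' i).2.symm, (h1 i).1 (Finset.mem_filter.1 hi).2⟩
    have hdisj : Disjoint (I.image a) (I.image b) := by
      rw [Finset.disjoint_left]
      intro y hya hyb
      obtain ⟨i, _, rfl⟩ := Finset.mem_image.1 hya
      obtain ⟨j, _, hj⟩ := Finset.mem_image.1 hyb
      exact hP.ne i j hj.symm
    have hc : (S.erase x).card = I.card + I.card := by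
      rw [hE, Finset.card_union_of_disjoint hdisj, Finset.card_image_of_injective _ hP.inja,
        Finset.card_image_of_injective _ hP.injb]
    omega
  · set f : Fin 4 → Fin n := fun i => if a i ∈ S then a i else b i with hf
    have hfinj : Function.Injective f := by
      intro i j hij
      simp only [hf] at hij
      split_ifs at hij
      · exact hP.inja hij
      · exact absurd hij (hP.ne i j)
      · exact absurd hij.symm (hP.ne j i)
      · exact hP.injb hij
    have hsub : (Finset.univ.image f) ⊆ S.erase x := by
      intro y hy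
      obtain ⟨i, _, rfl⟩ := Finset.mem_image.1 hy
      simp only [hf]
      split_ifs with h
      · exact Finset.mem_erase.2 ⟨(hx' i).1.symm, h⟩
      · refine Finset.mem_erase.2 ⟨(hx' i).2.symm, ?_⟩
        by_contra hb
        exact h ((h2 i).2 hb)
    have := Finset.card_le_card hsub
    rw [Finset.card_image_of_injective _ hfinj, Finset.card_univ, Fintype.card_fin, hcard] at this
    omega

end Cfsg.Agent.Lib.H16A2Str4b
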