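import Cfsg.Agent.Lib.H16A2Defs
import Cfsg.Agent.Lib.H16AltDefs

set_option autoImplicit false

namespace Cfsg.Agent.Lib.H16A2SylGen

open Cfsg Subgroup Equiv Equiv.Perm Cfsg.Agent.Lib.H16A2Defs Cfsg.Agent.Lib.H16AltDefs
open scoped Pointwise

/-- PIECE SylGen.  A set of pairwise commuting even involutions is conjugate into any subgroup containing a Sylow 2-subgroup of `Alt(n)`. -/
theorem conj_into {n : ℕ} (H : Subgroup (Perm (Fin n)))
    (hS : ∃ P : Sylow 2 ↥(alternatingGroup (Fin n)),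
      ((P : Subgroup ↥(alternatingGroup (Fin n))).map (alternatingGroup (Fin n)).subtype) ≤ H)
    (F : Set (Perm (Fin n))) (hsign : ∀ f ∈ F, sign f = 1) (hinv : ∀ f ∈ F, f * f = 1)
    (hcomm : ∀ f ∈ F, ∀ f' ∈ F, f * f' = f' * f) : ∃ g : Perm (Fin n), ∀ f ∈ F, g * f * g⁻¹ ∈ H := by
  classical
  have : Fact (Nat.Prime 2) := ⟨by norm_num⟩
  obtain ⟨P, hPH⟩ := hS
  set F' : Set ↥(alternatingGroup (Fin n)) := {x | (x : Perm (Fin n)) ∈ F} with hF'
  set E : Subgroup ↥(alternatingGroup (Fin n)) := closure F' with hE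
  have hcom0 : ∀ x ∈ F', ∀ y ∈ F', Commute x y := by
    intro x hx y hy
    exact Subtype.ext (hcomm x.1 hx y.1 hy)
  have hcom1 : ∀ x ∈ F', ∀ y ∈ E, Commute x y := by
    intro x hx y hy
    have h1 : E ≤ centralizer {x} := by
      rw [hE, closure_le]
      intro j hj
      rw [SetLike.mem_coe, mem_centralizer_singleton_iff]
      exact (hcom0 j hj x hx).eq
    have h := h1 hy
    rw [mem_centralizer_singleton_iff] at h
    exact h.symm
  have hcom : ∀ x ∈ E, ∀ y ∈ E, Commute x y := by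
    intro x hx y hy
    have h1 : E ≤ centralizer {y} := by
      rw [hE, closure_le]
      intro j hj
      rw [SetLike.mem_coe, mem_centralizer_singleton_iff]
      exact (hcom1 j hj y hy).eq
    have h := h1 hx
    rw [mem_centralizer_singleton_iff] at h
    exact h
  have hpow : ∀ x ∈ E, x ^ 2 = 1 := by
    intro x hx
    induction hx using closure_induction with
    | mem x hx =>
      apply Subtype.ext
      rw [pow_two]
      exact hinv x.1 hx
    | one => exact one_pow _
    | mul x y hx hy ihx ihy =>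
      rw [(hcom x hx y hy).mul_pow, ihx, ihy, one_mul]
    | inv x hx ih => rw [inv_pow, ih, inv_one]
  have hEp : IsPGroup 2 E := by
    intro g
    refine ⟨1, ?_⟩
    apply Subtype.ext
    rw [pow_one]
    exact hpow g.1 g.2
  obtain ⟨Q, hQ⟩ := hEp.exists_le_sylow
  obtain ⟨g, hg⟩ := MulAction.exists_smul_eq ↥(alternatingGroup (Fin n)) Q P
  refine ⟨(g : Perm (Fin n)), ?_⟩
  intro f hf
  apply hPH
  set f' : ↥(alternatingGroup (Fin n)) := ⟨f, mem_alternatingGroup.2 (hsign f hf)⟩ with hf'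
  have h1 : f' ∈ (Q : Subgroup ↥(alternatingGroup (Fin n))) := hQ (subset_closure hf)
  have h2 : MulAut.conj g • f' ∈ MulAut.conj g • (Q : Subgroup ↥(alternatingGroup (Fin n))) :=
    Subgroup.smul_mem_pointwise_smul _ _ _ h1
  have h3 : MulAut.conj g • f' ∈ (P : Subgroup ↥(alternatingGroup (Fin n))) := by
    rw [← hg, Sylow.smul_def, Sylow.pointwise_smul_def]
    exact h2
  exact ⟨MulAut.conj g • f', h3, rfl⟩

end Cfsg.Agent.Lib.H16A2SylGen
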