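import Cfsg.Agent.Lib.H16A2Defs
import Cfsg.Agent.Lib.H16AltDefs
import Cfsg.Agent.Lib.H16A2SylGen

set_option autoImplicit false

namespace Cfsg.Agent.Lib.H16A2SylE

open Cfsg Subgroup Equiv Equiv.Perm Cfsg.Agent.Lib.H16A2Defs Cfsg.Agent.Lib.H16AltDefs

/-- PIECE SylE.  `k := n / 2`, `a⁰ i := ⟨2 i, _⟩`, `b⁰ i := ⟨2 i + 1, _⟩`, `s i := swap (a⁰ i) (b⁰ i)`: pairwise commuting involutions (disjoint for `i ≠ j`).
`F := {s i * s j | i ≠ j}`: sign 1 (`sign_swap`), squares 1, pairwise commuting.  `H16A2SylGen.conj_into` gives `g`; `a := g ∘ a⁰`, `b := g ∘ b⁰`;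
`g * (swap x y * swap u w) * g⁻¹ = swap (g x) (g y) * swap (g u) (g w)` (`Equiv.swap_apply_apply`, or `ext` + `swap_apply_def`). -/
theorem exists_pairs (n : ℕ) (hn : 8 ≤ n) (H : Subgroup (Perm (Fin n)))
    (hS : ∃ P : Sylow 2 ↥(alternatingGroup (Fin n)),
      ((P : Subgroup ↥(alternatingGroup (Fin n))).map (alternatingGroup (Fin n)).subtype) ≤ H) :
    ∃ (k : ℕ) (a b : Fin k → Fin n), 4 ≤ k ∧ Pairs H k a b := by
  classical
  set k := n / 2 with hk
  let a0 : Fin k → Fin n := fun i => ⟨2 * i.1, by have := i.2; omega⟩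
  let b0 : Fin k → Fin n := fun i => ⟨2 * i.1 + 1, by have := i.2; omega⟩
  have ha0 : Function.Injective a0 := by
    intro i j h
    have := congrArg Fin.val h
    simp only [a0] at this
    exact Fin.ext (by omega)
  have hb0 : Function.Injective b0 := by
    intro i j h
    have := congrArg Fin.val h
    simp only [b0] at this
    exact Fin.ext (by omega)
  have hab0 : ∀ i j, a0 i ≠ b0 j := by
    intro i j h
    have := congrArg Fin.val h
    simp only [a0, b0] at this
    omega
  let s : Fin k → Perm (Fin n) := fun i => swap (a0 i) (b0 i)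
  have hss : ∀ i, s i * s i = 1 := fun i => swap_mul_self _ _
  have hsc : ∀ i j, Commute (s i) (s j) := by
    intro i j
    by_cases hij : i = j
    · rw [hij]
    · apply Disjoint.commute
      apply disjoint_swap_swap
      have h1 : a0 i ≠ a0 j := fun h => hij (ha0 h)
      have h2 : b0 i ≠ b0 j := fun h => hij (hb0 h)
      have h3 := hab0 i j
      have h4 := hab0 j i
      have h5 := hab0 i i
      have h6 := hab0 j j
      simp only [List.nodup_cons, List.mem_cons, List.not_mem_nil, or_false, not_or,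
        List.nodup_nil, and_true, not_false_eq_true]
      exact ⟨⟨h5, h1, h3⟩, ⟨h4.symm, h2⟩, h6⟩
  have hsign : ∀ i, sign (s i) = -1 := fun i => sign_swap (hab0 i i)
  obtain ⟨g, hg⟩ := H16A2SylGen.conj_into H hS {f | ∃ i j, i ≠ j ∧ f = s i * s j}
    (by
      rintro f ⟨i, j, _, rfl⟩
      rw [map_mul, hsign, hsign]; rfl)
    (by
      rintro f ⟨i, j, _, rfl⟩
      calc s i * s j * (s i * s j) = s i * (s j * s i) * s j := by group
        _ = s i * (s i * s j) * s j := by rw [(hsc j i).eq]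
        _ = (s i * s i) * (s j * s j) := by group
        _ = 1 := by rw [hss, hss, one_mul])
    (by
      rintro f ⟨i, j, _, rfl⟩ f' ⟨i', j', _, rfl⟩
      exact (((hsc i i').mul_right (hsc i j')).mul_left ((hsc j i').mul_right (hsc j j'))).eq)
  refine ⟨k, fun i => g (a0 i), fun i => g (b0 i), by omega, ?_⟩
  refine ⟨fun i j h => ha0 (g.injective h), fun i j h => hb0 (g.injective h),
    fun i j h => hab0 i j (g.injective h), ?_, by omega⟩
  intro i j hij
  have := hg (s i * s j) ⟨i, j, hij, rfl⟩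
  have e : g * (s i * s j) * g⁻¹ = swap (g (a0 i)) (g (b0 i)) * swap (g (a0 j)) (g (b0 j)) := by
    rw [swap_apply_apply, swap_apply_apply]
    show g * (swap (a0 i) (b0 i) * swap (a0 j) (b0 j)) * g⁻¹ = _
    group
  rw [e] at this
  exact this

end Cfsg.Agent.Lib.H16A2SylE
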