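import Cfsg.Agent.Lib.H16A2Defs
import Cfsg.Agent.Lib.H16AltDefs

set_option autoImplicit false

namespace Cfsg.Agent.Lib.H16A2VMk

open Cfsg Subgroup Equiv Equiv.Perm Cfsg.Agent.Lib.H16A2Defs Cfsg.Agent.Lib.H16AltDefs

/-- PIECE VMk (Mathlib only).  Case bash: `a b c e ∈ {p, q, r, s}` pairwise distinct: 24 cases, each equal to one of the three given elements
after `swap_comm` and commuting the two disjoint swaps (`Equiv.Perm.Disjoint.commute`).  Card: `Finset.card_insert_of_notMem` four times (`simp [*]`). -/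
theorem vset_mk {n : ℕ} {H : Subgroup (Perm (Fin n))} {p q r s : Fin n} (hpq : p ≠ q) (hpr : p ≠ r) (hps : p ≠ s)
    (hqr : q ≠ r) (hqs : q ≠ s) (hrs : r ≠ s) (h1 : swap p q * swap r s ∈ H) (h2 : swap p r * swap q s ∈ H)
    (h3 : swap p s * swap q r ∈ H) : Vset H ({p, q, r, s} : Finset (Fin n)) := by
  have comm : ∀ x y u w : Fin n, x ≠ y → x ≠ u → x ≠ w → y ≠ u → y ≠ w → u ≠ w →
      swap x y * swap u w = swap u w * swap x y := by
    intro x y u w hxy hxu hxw hyu hyw huw
    exact (disjoint_swap_swap (by simp [*])).commute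
  have key : ∀ x y u w : Fin n, x ≠ y → x ≠ u → x ≠ w → y ≠ u → y ≠ w → u ≠ w →
      swap x y * swap u w ∈ H →
      (swap y x * swap u w ∈ H ∧ swap x y * swap w u ∈ H ∧ swap y x * swap w u ∈ H ∧
        swap u w * swap x y ∈ H ∧ swap u w * swap y x ∈ H ∧ swap w u * swap x y ∈ H ∧
        swap w u * swap y x ∈ H) := by
    intro x y u w hxy hxu hxw hyu hyw huw h
    have h' : swap u w * swap x y ∈ H := by
      rw [← comm x y u w hxy hxu hxw hyu hyw huw]; exact h
    refine ⟨?_, ?_, ?_, h', ?_, ?_, ?_⟩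
    · rw [swap_comm y x]; exact h
    · rw [swap_comm w u]; exact h
    · rw [swap_comm y x, swap_comm w u]; exact h
    · rw [swap_comm y x]; exact h'
    · rw [swap_comm w u]; exact h'
    · rw [swap_comm y x, swap_comm w u]; exact h'
  obtain ⟨a1, a2, a3, a4, a5, a6, a7⟩ := key p q r s hpq hpr hps hqr hqs hrs h1
  obtain ⟨b1, b2, b3, b4, b5, b6, b7⟩ := key p r q s hpr hpq hps hqr.symm hrs hqs h2
  obtain ⟨c1, c2, c3, c4, c5, c6, c7⟩ := key p s q r hps hpq hpr hqs.symm hrs.symm hqr h3
  clear key comm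
  refine ⟨?_, ?_⟩
  · rw [Finset.card_insert_of_notMem (by simp [*]), Finset.card_insert_of_notMem (by simp [*]),
      Finset.card_insert_of_notMem (by simp [*]), Finset.card_singleton]
  intro a b c e ha hb hc he hab hac hae hbc hbe hce
  simp only [Finset.mem_insert, Finset.mem_singleton] at ha hb hc he
  rcases ha with rfl | rfl | rfl | rfl <;> rcases hb with rfl | rfl | rfl | rfl <;>
    (try exact absurd rfl hab) <;> rcases hc with rfl | rfl | rfl | rfl <;>
    (try exact absurd rfl hac) <;> (try exact absurd rfl hbc) <;>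
    rcases he with rfl | rfl | rfl | rfl <;>
    first
      | exact absurd rfl hae
      | exact absurd rfl hbe
      | exact absurd rfl hce
      | assumption

end Cfsg.Agent.Lib.H16A2VMk
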