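import Cfsg.Agent.Lib.H16A2Defs
import Cfsg.Agent.Lib.H16AltDefs
import Cfsg.Agent.Lib.H16A2SylGen
import Cfsg.Agent.Lib.H16A2VMk

set_option autoImplicit false

namespace Cfsg.Agent.Lib.H16A2SylV

open Cfsg Subgroup Equiv Equiv.Perm Cfsg.Agent.Lib.H16A2Defs Cfsg.Agent.Lib.H16AltDefs

/-- PIECE SylV.  `p q r s := ⟨0,_⟩ ⟨1,_⟩ ⟨2,_⟩ ⟨3,_⟩`; `F := {(pq)(rs), (pr)(qs), (ps)(qr)}`: sign 1, involutions, pairwise commuting
(for 4 distinct points: `ext x`, `by_cases` on `x = p, q, r, s`, `swap_apply_def`/`simp [swap_apply_of_ne_of_ne, *]`).  `H16A2SylGen.conj_into` gives `g`;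
`g * (swap x y * swap u w) * g⁻¹ = swap (g x) (g y) * swap (g u) (g w)`; `H16A2VMk.vset_mk` with `g p, g q, g r, g s`. -/
theorem exists_vset (n : ℕ) (hn : 4 ≤ n) (H : Subgroup (Perm (Fin n)))
    (hS : ∃ P : Sylow 2 ↥(alternatingGroup (Fin n)),
      ((P : Subgroup ↥(alternatingGroup (Fin n))).map (alternatingGroup (Fin n)).subtype) ≤ H) :
    ∃ S, Vset H S := by
  have prod : ∀ x y u w : Fin n, x ≠ y → x ≠ u → x ≠ w → y ≠ u → y ≠ w → u ≠ w →
      (swap x y * swap u w) * (swap x u * swap y w) = swap x w * swap y u := by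
    intro x y u w hxy hxu hxw hyu hyw huw
    have hyx := hxy.symm
    have hux := hxu.symm
    have hwx := hxw.symm
    have huy := hyu.symm
    have hwy := hyw.symm
    have hwu := huw.symm
    refine Equiv.ext fun t => ?_
    simp only [Perm.mul_apply]
    by_cases h1 : t = x
    · subst h1
      simp [swap_apply_of_ne_of_ne, *]
    by_cases h2 : t = y
    · subst h2
      simp [swap_apply_of_ne_of_ne, *]
    by_cases h3 : t = u
    · subst h3
      simp [swap_apply_of_ne_of_ne, *]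
    by_cases h4 : t = w
    · subst h4
      simp [swap_apply_of_ne_of_ne, *]
    simp [swap_apply_of_ne_of_ne, *]
  have comm2 : ∀ x y u w : Fin n, x ≠ y → x ≠ u → x ≠ w → y ≠ u → y ≠ w → u ≠ w →
      (swap x y * swap u w) * (swap x u * swap y w)
        = (swap x u * swap y w) * (swap x y * swap u w) := by
    intro x y u w hxy hxu hxw hyu hyw huw
    rw [prod x y u w hxy hxu hxw hyu hyw huw, prod x u y w hxu hxy hxw hyu.symm huw hyw,
      swap_comm u y]
  have inv2 : ∀ x y u w : Fin n, x ≠ y → x ≠ u → x ≠ w → y ≠ u → y ≠ w → u ≠ w →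
      (swap x y * swap u w) * (swap x y * swap u w) = 1 := by
    intro x y u w hxy hxu hxw hyu hyw huw
    have hc : Commute (swap u w) (swap x y) :=
      (disjoint_swap_swap (by simp [*])).commute.symm
    rw [hc.mul_mul_mul_comm, swap_mul_self, swap_mul_self, one_mul]
  have sg : ∀ x y u w : Fin n, x ≠ y → u ≠ w → sign (swap x y * swap u w) = 1 := by
    intro x y u w hxy huw
    simp [sign_swap hxy, sign_swap huw]
  have cj : ∀ (g : Perm (Fin n)) (x y u w : Fin n),
      g * (swap x y * swap u w) * g⁻¹ = swap (g x) (g y) * swap (g u) (g w) := by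
    intro g x y u w
    rw [swap_apply_apply, swap_apply_apply]
    group
  obtain ⟨p, q, r, s, hpq, hpr, hps, hqr, hqs, hrs⟩ :
      ∃ p q r s : Fin n, p ≠ q ∧ p ≠ r ∧ p ≠ s ∧ q ≠ r ∧ q ≠ s ∧ r ≠ s := by
    refine ⟨⟨0, by omega⟩, ⟨1, by omega⟩, ⟨2, by omega⟩, ⟨3, by omega⟩, ?_, ?_, ?_, ?_, ?_, ?_⟩ <;>
      simp [Fin.ext_iff]
  have hAB := comm2 p q r s hpq hpr hps hqr hqs hrs
  have hAC := comm2 p q s r hpq hps hpr hqs hqr hrs.symm
  have hBC := comm2 p r s q hpr hps hpq hrs hqr.symm hqs.symm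
  rw [swap_comm s r] at hAC
  rw [swap_comm s q, swap_comm r q] at hBC
  obtain ⟨g, hg⟩ := H16A2SylGen.conj_into H hS
    {swap p q * swap r s, swap p r * swap q s, swap p s * swap q r}
    (by
      rintro f (rfl | rfl | rfl)
      · exact sg _ _ _ _ hpq hrs
      · exact sg _ _ _ _ hpr hqs
      · exact sg _ _ _ _ hps hqr)
    (by
      rintro f (rfl | rfl | rfl)
      · exact inv2 _ _ _ _ hpq hpr hps hqr hqs hrs
      · exact inv2 _ _ _ _ hpr hpq hps hqr.symm hrs hqs
      · exact inv2 _ _ _ _ hps hpq hpr hqs.symm hrs.symm hqr)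
    (by
      rintro f (rfl | rfl | rfl) f' (rfl | rfl | rfl)
      · rfl
      · exact hAB
      · exact hAC
      · exact hAB.symm
      · rfl
      · exact hBC
      · exact hAC.symm
      · exact hBC.symm
      · rfl)
  have i := g.injective
  refine ⟨{g p, g q, g r, g s}, H16A2VMk.vset_mk (i.ne hpq) (i.ne hpr) (i.ne hps) (i.ne hqr)
    (i.ne hqs) (i.ne hrs) ?_ ?_ ?_⟩
  · rw [← cj]; exact hg _ (by simp)
  · rw [← cj]; exact hg _ (by simp)
  · rw [← cj]; exact hg _ (by simp)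

end Cfsg.Agent.Lib.H16A2SylV
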