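import Cfsg.Agent.Lib.H16A2Defs
import Cfsg.Agent.Lib.H16AltDefs
import Cfsg.Agent.Lib.H16A2VInv
import Cfsg.Agent.Lib.H16A2Calc
import Cfsg.Agent.Lib.H16A2Conj2

set_option autoImplicit false

namespace Cfsg.Agent.Lib.H16A2XS

open Cfsg Subgroup Equiv Equiv.Perm Cfsg.Agent.Lib.H16A2Defs Cfsg.Agent.Lib.H16AltDefs
open Cfsg.Agent.Lib.H16A2Calc Cfsg.Agent.Lib.H16A2Conj2
open scoped commutatorElement

theorem fix_one {n : ℕ} (S : Finset (Fin n)) : Fix (1 : Perm (Fin n)) S := fun _ => Iff.rfl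

/-- the subgroup `X`. -/
def XX {n : ℕ} (H : Subgroup (Perm (Fin n))) : Subgroup (Perm (Fin n)) where
  carrier := {x | x ∈ H ∧ ∀ S, Vset H S → Fix x S ∨ Flip H x S}
  one_mem' := ⟨H.one_mem, fun S _ => Or.inl (fix_one S)⟩
  mul_mem' := by
    rintro a b ⟨haH, ha⟩ ⟨hbH, hb⟩
    refine ⟨H.mul_mem haH hbH, fun S hS => ?_⟩
    rcases ha S hS with h1 | h1 <;> rcases hb S hS with h2 | h2
    · exact Or.inl (fix_mul h1 h2)
    · exact Or.inr (fix_flip h1 h2)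
    · exact Or.inr (flip_fix hbH h1 h2)
    · exact Or.inl (flip_flip hS haH hbH h1 h2)
  inv_mem' := by
    rintro a ⟨haH, ha⟩
    refine ⟨H.inv_mem haH, fun S hS => ?_⟩
    rcases ha S hS with h1 | h1
    · exact Or.inl (fix_inv h1)
    · exact Or.inr (flip_inv haH h1)

/-- the subgroup `X₀`. -/
def XX0 {n : ℕ} (H : Subgroup (Perm (Fin n))) : Subgroup (Perm (Fin n)) where
  carrier := {x | x ∈ H ∧ ∀ S, Vset H S → Fix x S}
  one_mem' := ⟨H.one_mem, fun S _ => fix_one S⟩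
  mul_mem' := by
    rintro a b ⟨haH, ha⟩ ⟨hbH, hb⟩
    exact ⟨H.mul_mem haH hbH, fun S hS => fix_mul (ha S hS) (hb S hS)⟩
  inv_mem' := by
    rintro a ⟨haH, ha⟩
    exact ⟨H.inv_mem haH, fun S hS => fix_inv (ha S hS)⟩

/-- PIECE XS.  The normal subgroups `X₀ ≤ X` of `H`. -/
theorem exists_X {n : ℕ} (H : Subgroup (Perm (Fin n))) : ∃ X X₀ : Subgroup (Perm (Fin n)),
    (∀ x, x ∈ X ↔ x ∈ H ∧ ∀ S, Vset H S → Fix x S ∨ Flip H x S) ∧
    (∀ x, x ∈ X₀ ↔ x ∈ H ∧ ∀ S, Vset H S → Fix x S) ∧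
    (∀ h ∈ H, ∀ x ∈ X, h * x * h⁻¹ ∈ X) ∧ ⁅X, X⁆ ≤ X₀ := by
  refine ⟨XX H, XX0 H, fun _ => Iff.rfl, fun _ => Iff.rfl, ?_, ?_⟩
  · rintro h hh x ⟨hxH, hx⟩
    refine ⟨H.mul_mem (H.mul_mem hh hxH) (H.inv_mem hh), fun S hS => ?_⟩
    have hS' : Vset H (S.image ⇑h⁻¹) := H16A2VInv.vset_image (H.inv_mem hh) hS
    rcases hx _ hS' with h1 | h1
    · exact Or.inl (fix_conj h1)
    · exact Or.inr (flip_conj hh h1)
  · rw [Subgroup.commutator_le]
    rintro g ⟨hgH, hg⟩ h ⟨hhH, hh⟩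
    refine ⟨?_, fun S hS => ?_⟩
    · rw [commutatorElement_def]
      exact H.mul_mem (H.mul_mem (H.mul_mem hgH hhH) (H.inv_mem hgH)) (H.inv_mem hhH)
    · rw [commutatorElement_def]
      have hgi := H.inv_mem hgH
      have hhi := H.inv_mem hhH
      have hgh := H.mul_mem hgH hhH
      have hghg := H.mul_mem hgh hgi
      rcases hg S hS with h1 | h1 <;> rcases hh S hS with h2 | h2
      · exact fix_mul (fix_mul (fix_mul h1 h2) (fix_inv h1)) (fix_inv h2)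
      · exact flip_flip hS hghg hhi (flip_fix hgi (fix_flip h1 h2) (fix_inv h1)) (flip_inv hhH h2)
      · exact fix_mul (flip_flip hS hgh hgi (flip_fix hhH h1 h2) (flip_inv hgH h1)) (fix_inv h2)
      · exact flip_flip hS hghg hhi (fix_flip (flip_flip hS hgH hhH h1 h2) (flip_inv hgH h1))
          (flip_inv hhH h2)

end Cfsg.Agent.Lib.H16A2XS
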