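import Cfsg.Agent.Lib.H16A2Defs
import Cfsg.Agent.Lib.H16AltDefs

set_option autoImplicit false

namespace Cfsg.Agent.Lib.H16A2Z

open Cfsg Subgroup Equiv Equiv.Perm Cfsg.Agent.Lib.H16A2Defs Cfsg.Agent.Lib.H16AltDefs

/-- PIECE Z (1/4): values of `zz` (unfold `zz`, `Perm.mul_apply`, `fin_cases i`, `swap_apply_left/right`, `swap_apply_of_ne_of_ne`). -/
theorem zz_a {n : ℕ} {a b : Fin 4 → Fin n} (inja : Function.Injective a) (injb : Function.Injective b)
    (hne : ∀ i j, a i ≠ b j) (i : Fin 4) : zz a b (a i) = b i := by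
  have h : ∀ i j : Fin 4, i ≠ j → a i ≠ a j := fun i j hij e => hij (inja e)
  unfold zz
  simp only [Perm.mul_apply]
  fin_cases i
  · show swap (a 0) (b 0) (swap (a 1) (b 1) (swap (a 2) (b 2) (swap (a 3) (b 3) (a 0)))) = b 0
    rw [swap_apply_of_ne_of_ne (h 0 3 (by decide)) (hne 0 3),
      swap_apply_of_ne_of_ne (h 0 2 (by decide)) (hne 0 2),
      swap_apply_of_ne_of_ne (h 0 1 (by decide)) (hne 0 1), swap_apply_left]
  · show swap (a 0) (b 0) (swap (a 1) (b 1) (swap (a 2) (b 2) (swap (a 3) (b 3) (a 1)))) = b 1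
    rw [swap_apply_of_ne_of_ne (h 1 3 (by decide)) (hne 1 3),
      swap_apply_of_ne_of_ne (h 1 2 (by decide)) (hne 1 2), swap_apply_left,
      swap_apply_of_ne_of_ne (hne 0 1).symm (fun e => absurd (injb e) (by decide))]
  · show swap (a 0) (b 0) (swap (a 1) (b 1) (swap (a 2) (b 2) (swap (a 3) (b 3) (a 2)))) = b 2
    rw [swap_apply_of_ne_of_ne (h 2 3 (by decide)) (hne 2 3), swap_apply_left,
      swap_apply_of_ne_of_ne (hne 1 2).symm (fun e => absurd (injb e) (by decide)),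
      swap_apply_of_ne_of_ne (hne 0 2).symm (fun e => absurd (injb e) (by decide))]
  · show swap (a 0) (b 0) (swap (a 1) (b 1) (swap (a 2) (b 2) (swap (a 3) (b 3) (a 3)))) = b 3
    rw [swap_apply_left,
      swap_apply_of_ne_of_ne (hne 2 3).symm (fun e => absurd (injb e) (by decide)),
      swap_apply_of_ne_of_ne (hne 1 3).symm (fun e => absurd (injb e) (by decide)),
      swap_apply_of_ne_of_ne (hne 0 3).symm (fun e => absurd (injb e) (by decide))]

/-- PIECE Z (2/4). -/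
theorem zz_b {n : ℕ} {a b : Fin 4 → Fin n} (inja : Function.Injective a) (injb : Function.Injective b)
    (hne : ∀ i j, a i ≠ b j) (i : Fin 4) : zz a b (b i) = a i := by
  have h : ∀ i j : Fin 4, i ≠ j → b i ≠ b j := fun i j hij e => hij (injb e)
  unfold zz
  simp only [Perm.mul_apply]
  fin_cases i
  · show swap (a 0) (b 0) (swap (a 1) (b 1) (swap (a 2) (b 2) (swap (a 3) (b 3) (b 0)))) = a 0
    rw [swap_apply_of_ne_of_ne (hne 3 0).symm (h 0 3 (by decide)),
      swap_apply_of_ne_of_ne (hne 2 0).symm (h 0 2 (by decide)),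
      swap_apply_of_ne_of_ne (hne 1 0).symm (h 0 1 (by decide)), swap_apply_right]
  · show swap (a 0) (b 0) (swap (a 1) (b 1) (swap (a 2) (b 2) (swap (a 3) (b 3) (b 1)))) = a 1
    rw [swap_apply_of_ne_of_ne (hne 3 1).symm (h 1 3 (by decide)),
      swap_apply_of_ne_of_ne (hne 2 1).symm (h 1 2 (by decide)), swap_apply_right,
      swap_apply_of_ne_of_ne (fun e => absurd (inja e) (by decide)) (hne 1 0)]
  · show swap (a 0) (b 0) (swap (a 1) (b 1) (swap (a 2) (b 2) (swap (a 3) (b 3) (b 2)))) = a 2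
    rw [swap_apply_of_ne_of_ne (hne 3 2).symm (h 2 3 (by decide)), swap_apply_right,
      swap_apply_of_ne_of_ne (fun e => absurd (inja e) (by decide)) (hne 2 1),
      swap_apply_of_ne_of_ne (fun e => absurd (inja e) (by decide)) (hne 2 0)]
  · show swap (a 0) (b 0) (swap (a 1) (b 1) (swap (a 2) (b 2) (swap (a 3) (b 3) (b 3)))) = a 3
    rw [swap_apply_right,
      swap_apply_of_ne_of_ne (fun e => absurd (inja e) (by decide)) (hne 3 2),
      swap_apply_of_ne_of_ne (fun e => absurd (inja e) (by decide)) (hne 3 1),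
      swap_apply_of_ne_of_ne (fun e => absurd (inja e) (by decide)) (hne 3 0)]

/-- PIECE Z (3/4). -/
theorem zz_out {n : ℕ} {a b : Fin 4 → Fin n} (x : Fin n) (hx : ∀ i, x ≠ a i ∧ x ≠ b i) : zz a b x = x := by
  unfold zz
  simp only [Perm.mul_apply]
  rw [swap_apply_of_ne_of_ne (hx 3).1 (hx 3).2, swap_apply_of_ne_of_ne (hx 2).1 (hx 2).2,
    swap_apply_of_ne_of_ne (hx 1).1 (hx 1).2, swap_apply_of_ne_of_ne (hx 0).1 (hx 0).2]

/-- PIECE Z (4/4): `zz a b = (s0 s1) (s2 s3)` is a product of two elements of `H` (`hP.mem 0 1`, `hP.mem 2 3`). -/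
theorem zz_mem {n : ℕ} {H : Subgroup (Perm (Fin n))} {a b : Fin 4 → Fin n} (hP : Pairs H 4 a b) :
    zz a b ∈ H := by
  unfold zz
  exact H.mul_mem (hP.mem 0 1 (by decide)) (hP.mem 2 3 (by decide))

end Cfsg.Agent.Lib.H16A2Z
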