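import Cfsg.Agent.Lib.H16A2Defs
import Cfsg.Agent.Lib.H16AltDefs
import Cfsg.Agent.Lib.H16A2Str4a
import Cfsg.Agent.Lib.H16A2Str4b
import Cfsg.Agent.Lib.H16A2Z

set_option autoImplicit false

namespace Cfsg.Agent.Lib.H16A2ZX

open Cfsg Subgroup Equiv Equiv.Perm Cfsg.Agent.Lib.H16A2Defs Cfsg.Agent.Lib.H16AltDefs

/-- PIECE ZX.  `H16A2Str4a.dichotomy`.  First case: `Fix`: for `x = a i` / `b i` use `H16A2Z.zz_a/zz_b`, otherwise `zz_out`.
Second case: `Flip`: if `InU H x` then `x = a i` or `b i` by `H16A2Str4b.sub_pairs` (applied to the V-set containing `x`), and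
`(a i ∈ S ↔ b i ∉ S)` gives both `(a i ∈ S ↔ zz (a i) ∉ S)` and `(b i ∈ S ↔ zz (b i) ∉ S)`. -/
theorem zz_fix_or_flip {n : ℕ} {H : Subgroup (Perm (Fin n))} {a b : Fin 4 → Fin n}
    (hno : ∀ c ∈ H, ¬ c.IsThreeCycle) (hP : Pairs H 4 a b) {S : Finset (Fin n)} (hS : Vset H S) :
    Fix (zz a b) S ∨ Flip H (zz a b) S := by
  have za := H16A2Z.zz_a hP.inja hP.injb hP.ne
  have zb := H16A2Z.zz_b hP.inja hP.injb hP.ne
  rcases H16A2Str4a.dichotomy hno hP hS with h | h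
  · left
    intro x
    by_cases hx : ∃ i, x = a i ∨ x = b i
    · obtain ⟨i, rfl | rfl⟩ := hx
      · rw [za]; exact h i
      · rw [zb]; exact (h i).symm
    · push Not at hx
      rw [H16A2Z.zz_out x hx]
  · right
    intro x hxU
    obtain ⟨T, hT, hxT⟩ := hxU
    obtain ⟨i, rfl | rfl⟩ := H16A2Str4b.sub_pairs hno hP hT x hxT
    · rw [za]; exact h i
    · rw [zb]
      have := h i
      tauto

end Cfsg.Agent.Lib.H16A2ZX
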