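import Cfsg.Agent.Lib.H16AltDefs

set_option autoImplicit false

namespace Cfsg.Agent.Lib.H16AltP3

open Cfsg Subgroup Equiv Equiv.Perm Cfsg.Agent.Lib.H16AltDefs
open scoped Pointwise

/-- PIECE P3 (Mathlib only).  A subgroup containing a Sylow 3-subgroup of `Sym(n)` contains `t = n / 3` disjoint 3-cycles. -/
theorem three_cycles (n : ℕ) (H : Subgroup (Perm (Fin n)))
    (hS : ∃ P : Sylow 3 (Perm (Fin n)), (P : Subgroup (Perm (Fin n))) ≤ H) :
    ∃ (t : ℕ) (c : Fin t → Perm (Fin n)), (∀ i, c i ∈ H) ∧ (∀ i, (c i).IsThreeCycle) ∧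
      (∀ i j, i ≠ j → Perm.Disjoint (c i) (c j)) ∧ n ≤ 3 * t + 2 := by
  classical
  have : Fact (Nat.Prime 3) := ⟨by norm_num⟩
  obtain ⟨P, hPH⟩ := hS
  set t := n / 3 with ht
  have hb : ∀ i : Fin t, 3 * i.val + 2 < n := by
    intro i
    have := i.2
    omega
  let a : Fin t → Fin n := fun i => ⟨3 * i.val, by have := hb i; omega⟩
  let b : Fin t → Fin n := fun i => ⟨3 * i.val + 1, by have := hb i; omega⟩
  let d : Fin t → Fin n := fun i => ⟨3 * i.val + 2, hb i⟩
  let c0 : Fin t → Perm (Fin n) := fun i => swap (a i) (b i) * swap (a i) (d i)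
  have h3 : ∀ i, (c0 i).IsThreeCycle := by
    intro i
    apply isThreeCycle_swap_mul_swap_same
    · intro h; have := congrArg Fin.val h; simp [a, b] at this
    · intro h; have := congrArg Fin.val h; simp [a, d] at this
    · intro h; have := congrArg Fin.val h; simp [b, d] at this
  have hfix : ∀ (i : Fin t) (x : Fin n), x.val / 3 ≠ i.val → c0 i x = x := by
    intro i x hx
    have h1 : x ≠ a i := by
      intro h; apply hx; rw [h]; simp only [a]; omega
    have h2 : x ≠ b i := by
      intro h; apply hx; rw [h]; simp only [b]; omega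
    have h4 : x ≠ d i := by
      intro h; apply hx; rw [h]; simp only [d]; omega
    simp only [c0, Perm.mul_apply]
    rw [swap_apply_of_ne_of_ne h1 h4, swap_apply_of_ne_of_ne h1 h2]
  have hdis : ∀ i j, i ≠ j → Perm.Disjoint (c0 i) (c0 j) := by
    intro i j hij x
    by_cases h : x.val / 3 = i.val
    · right
      apply hfix
      rw [h]
      intro h'
      exact hij (Fin.ext h')
    · left
      exact hfix i x h
  have hcom0 : ∀ i j, Commute (c0 i) (c0 j) := by
    intro i j
    by_cases hij : i = j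
    · rw [hij]
    · exact (hdis i j hij).commute
  set E : Subgroup (Perm (Fin n)) := closure (Set.range c0) with hE
  have hcom1 : ∀ i, ∀ y ∈ E, Commute (c0 i) y := by
    intro i y hy
    have : E ≤ centralizer {c0 i} := by
      rw [hE, closure_le]
      rintro _ ⟨j, rfl⟩
      rw [SetLike.mem_coe, mem_centralizer_singleton_iff]
      exact (hcom0 j i).eq
    have h := this hy
    rw [mem_centralizer_singleton_iff] at h
    exact h.symm
  have hcom : ∀ x ∈ E, ∀ y ∈ E, Commute x y := by
    intro x hx y hy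
    have : E ≤ centralizer {y} := by
      rw [hE, closure_le]
      rintro _ ⟨j, rfl⟩
      rw [SetLike.mem_coe, mem_centralizer_singleton_iff]
      exact (hcom1 j y hy).eq
    have h := this hx
    rw [mem_centralizer_singleton_iff] at h
    exact h
  have hpow : ∀ x ∈ E, x ^ 3 = 1 := by
    intro x hx
    induction hx using closure_induction with
    | mem x hx =>
      obtain ⟨i, rfl⟩ := hx
      rw [← (h3 i).orderOf]
      exact pow_orderOf_eq_one _
    | one => exact one_pow _
    | mul x y hx hy ihx ihy =>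
      rw [(hcom x hx y hy).mul_pow, ihx, ihy, one_mul]
    | inv x hx ih => rw [inv_pow, ih, inv_one]
  have hEp : IsPGroup 3 E := by
    intro g
    refine ⟨1, ?_⟩
    apply Subtype.ext
    rw [pow_one]
    exact hpow g.1 g.2
  obtain ⟨Q, hQ⟩ := hEp.exists_le_sylow
  obtain ⟨g, hg⟩ := MulAction.exists_smul_eq (Perm (Fin n)) Q P
  refine ⟨t, fun i => g * c0 i * g⁻¹, ?_, ?_, ?_, ?_⟩
  · intro i
    apply hPH
    have h1 : c0 i ∈ (Q : Subgroup (Perm (Fin n))) := hQ (subset_closure ⟨i, rfl⟩)
    have h2 : MulAut.conj g • c0 i ∈ MulAut.conj g • (Q : Subgroup (Perm (Fin n))) :=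
      Subgroup.smul_mem_pointwise_smul _ _ _ h1
    rw [← hg, Sylow.smul_def, Sylow.pointwise_smul_def]
    exact h2
  · intro i
    unfold IsThreeCycle
    rw [cycleType_conj]
    exact h3 i
  · intro i j hij
    exact (disjoint_conj g).2 (hdis i j hij)
  · omega

end Cfsg.Agent.Lib.H16AltP3
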