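import Cfsg.Agent.Lib.H16A3Defs
import Cfsg.Agent.Lib.H16AltP3

set_option autoImplicit false

namespace Cfsg.Agent.Lib.H16A3Cover

open Cfsg Subgroup Equiv Equiv.Perm Cfsg.Agent.Lib.H16A3Defs

/-- PIECE Cover.  `H16AltP3.three_cycles n S hsyl` gives `t` disjoint 3-cycles `c i ∈ S` with `n ≤ 3 t + 2`; their supports are disjoint of size 3, so `3 t ≤ n`
(as in the landed `H16AltCard.card_le` / `H16AltP5`: `Finset.card_biUnion`), so `3 t = n` as `3 ∣ n` (omega), and the union of the supports is `univ`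
(`Finset.eq_univ_of_card`).  -/
theorem cover {n : ℕ} {S : Subgroup (Perm (Fin n))}
    (hsyl : ∃ P : Sylow 3 (Perm (Fin n)), (P : Subgroup (Perm (Fin n))) ≤ S) (h3 : 3 ∣ n) :
    ∀ p, ∃ c ∈ S, c.IsThreeCycle ∧ c p ≠ p := by
  classical
  obtain ⟨t, c, hcS, hc3, hdisj, hnt⟩ := Cfsg.Agent.Lib.H16AltP3.three_cycles n S hsyl
  have hcard : (Finset.univ.biUnion (fun i : Fin t => (c i).support)).card = 3 * t := by
    rw [Finset.card_biUnion]
    · have : ∀ i ∈ (Finset.univ : Finset (Fin t)), (c i).support.card = 3 :=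
        fun i _ => (hc3 i).card_support
      rw [Finset.sum_congr rfl this]
      simp [mul_comm]
    · intro i _ j _ hij
      exact (Perm.disjoint_iff_disjoint_support).1 (hdisj i j hij)
  have hle : 3 * t ≤ n := by
    rw [← hcard]
    calc (Finset.univ.biUnion (fun i : Fin t => (c i).support)).card
        ≤ (Finset.univ : Finset (Fin n)).card := Finset.card_le_card (Finset.subset_univ _)
      _ = n := by simp
  have heq : 3 * t = n := by omega
  have huniv : Finset.univ.biUnion (fun i : Fin t => (c i).support) = Finset.univ := by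
    apply Finset.eq_univ_of_card
    rw [hcard, heq]; simp
  intro p
  have hp : p ∈ Finset.univ.biUnion (fun i : Fin t => (c i).support) := by
    rw [huniv]; exact Finset.mem_univ p
  rw [Finset.mem_biUnion] at hp
  obtain ⟨i, -, hi⟩ := hp
  exact ⟨c i, hcS i, hc3 i, Perm.mem_support.1 hi⟩

/-- PIECE Cover (2/2): for `3 ≤ n` there is at least one 3-cycle in `S` (`t ≥ 1`). -/
theorem exists_one {n : ℕ} {S : Subgroup (Perm (Fin n))}
    (hsyl : ∃ P : Sylow 3 (Perm (Fin n)), (P : Subgroup (Perm (Fin n))) ≤ S) (h3 : 3 ≤ n) :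
    ∃ c ∈ S, c.IsThreeCycle := by
  obtain ⟨t, c, hcS, hc3, -, hnt⟩ := Cfsg.Agent.Lib.H16AltP3.three_cycles n S hsyl
  have ht : 0 < t := by omega
  exact ⟨c ⟨0, ht⟩, hcS _, hc3 _⟩

end Cfsg.Agent.Lib.H16A3Cover
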