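import Cfsg.Agent.Lib.H16A3Defs

set_option autoImplicit false
set_option linter.unusedSimpArgs false

namespace Cfsg.Agent.Lib.H16A3ExSigma

open Cfsg Subgroup Equiv Equiv.Perm Cfsg.Agent.Lib.H16A3Defs

theorem exists_sigma {n : ℕ} (T₁ T₂ : Finset (Fin n)) (h1 : T₁.card = 3) (h2 : T₂.card = 3)
    (hd : Disjoint T₁ T₂) : ∃ σ : Perm (Fin n), sign σ = 1 ∧ (∀ x ∈ T₁, σ x ∈ T₂) ∧ (∀ x ∈ T₂, σ x ∈ T₁) ∧
      (∀ x, x ∉ T₁ → x ∉ T₂ → σ x = x) := by
  have hpq : ∀ a ∈ T₁, ∀ b ∈ T₂, a ≠ b := fun a ha b hb h => Finset.disjoint_left.mp hd ha (h ▸ hb)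
  obtain ⟨p₁, p₂, p₃, a12, a13, a23, rfl⟩ := Finset.card_eq_three.mp h1
  obtain ⟨q₁, q₂, q₃, b12, b13, b23, rfl⟩ := Finset.card_eq_three.mp h2
  have c11 : p₁ ≠ q₁ := hpq _ (by simp) _ (by simp)
  have c12 : p₁ ≠ q₂ := hpq _ (by simp) _ (by simp)
  have c13 : p₁ ≠ q₃ := hpq _ (by simp) _ (by simp)
  have c21 : p₂ ≠ q₁ := hpq _ (by simp) _ (by simp)
  have c22 : p₂ ≠ q₂ := hpq _ (by simp) _ (by simp)
  have c23 : p₂ ≠ q₃ := hpq _ (by simp) _ (by simp)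
  have c31 : p₃ ≠ q₁ := hpq _ (by simp) _ (by simp)
  have c32 : p₃ ≠ q₂ := hpq _ (by simp) _ (by simp)
  have c33 : p₃ ≠ q₃ := hpq _ (by simp) _ (by simp)
  refine ⟨swap p₁ q₁ * swap p₂ q₂ * swap p₃ q₃ * swap p₁ p₂, ?_, ?_, ?_, ?_⟩
  · rw [map_mul, map_mul, map_mul, sign_swap c11, sign_swap c22, sign_swap c33, sign_swap a12]
    decide
  · intro x hx
    simp only [Finset.mem_insert, Finset.mem_singleton] at hx
    rcases hx with rfl | rfl | rfl <;>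
      simp [Perm.mul_apply, swap_apply_def, a12, a13, a23, b12, b13, b23, c11, c12, c13, c21, c22, c23, c31, c32, c33, a12.symm, a13.symm, a23.symm, b12.symm, b13.symm, b23.symm, c11.symm, c12.symm, c13.symm, c21.symm, c22.symm, c23.symm, c31.symm, c32.symm, c33.symm]
  · intro x hx
    simp only [Finset.mem_insert, Finset.mem_singleton] at hx
    rcases hx with rfl | rfl | rfl <;>
      simp [Perm.mul_apply, swap_apply_def, a12, a13, a23, b12, b13, b23, c11, c12, c13, c21, c22, c23, c31, c32, c33, a12.symm, a13.symm, a23.symm, b12.symm, b13.symm, b23.symm, c11.symm, c12.symm, c13.symm, c21.symm, c22.symm, c23.symm, c31.symm, c32.symm, c33.symm]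
  · intro x hx1 hx2
    simp only [Finset.mem_insert, Finset.mem_singleton, not_or] at hx1 hx2
    obtain ⟨e1, e2, e3⟩ := hx1
    obtain ⟨f1, f2, f3⟩ := hx2
    simp only [Perm.mul_apply]
    rw [swap_apply_of_ne_of_ne e1 e2, swap_apply_of_ne_of_ne e3 f3, swap_apply_of_ne_of_ne e2 f2,
      swap_apply_of_ne_of_ne e1 f1]

end Cfsg.Agent.Lib.H16A3ExSigma
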