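import Cfsg.Agent.Lib.H16A3Defs

set_option autoImplicit false

namespace Cfsg.Agent.Lib.H16A3Orb

open Cfsg Subgroup Equiv Equiv.Perm Cfsg.Agent.Lib.H16A3Defs

theorem self_mem {n : ℕ} (S : Subgroup (Perm (Fin n))) (x : Fin n) : x ∈ orb S x :=
  mem_orb.mpr ⟨1, S.one_mem, rfl⟩

theorem orb_eq_of_mem {n : ℕ} {S : Subgroup (Perm (Fin n))} {x y : Fin n} (h : y ∈ orb S x) :
    orb S y = orb S x := by
  obtain ⟨s, hs, rfl⟩ := mem_orb.mp h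
  ext z
  rw [mem_orb, mem_orb]
  constructor
  · rintro ⟨t, ht, rfl⟩
    exact ⟨t * s, S.mul_mem ht hs, rfl⟩
  · rintro ⟨t, ht, rfl⟩
    refine ⟨t * s⁻¹, S.mul_mem ht (S.inv_mem hs), ?_⟩
    rw [Perm.mul_apply]
    congr 1
    exact s.symm_apply_apply x

theorem stb_orb {n : ℕ} {S : Subgroup (Perm (Fin n))} (x : Fin n) : ∀ s ∈ S, Stb s (orb S x) := by
  intro s hs z
  rw [mem_orb, mem_orb]
  constructor
  · rintro ⟨t, ht, rfl⟩
    exact ⟨s * t, S.mul_mem hs ht, rfl⟩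
  · rintro ⟨t, ht, h⟩
    refine ⟨s⁻¹ * t, S.mul_mem (S.inv_mem hs) ht, ?_⟩
    rw [Perm.mul_apply, h]
    exact s.symm_apply_apply z

theorem card_orb_pow {n : ℕ} {S : Subgroup (Perm (Fin n))} (hp : IsPGroup 3 S) (x : Fin n) :
    ∃ e : ℕ, (orb S x).card = 3 ^ e := by
  have h3 : Fact (Nat.Prime 3) := ⟨Nat.prime_three⟩
  obtain ⟨e, he⟩ := hp.card_orbit x
  refine ⟨e, ?_⟩
  rw [← he]
  have hset : (MulAction.orbit S x) = ((orb S x : Finset (Fin n)) : Set (Fin n)) := by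
    ext z
    rw [Finset.mem_coe, mem_orb, MulAction.mem_orbit_iff]
    constructor
    · rintro ⟨s, rfl⟩
      exact ⟨s.1, s.2, rfl⟩
    · rintro ⟨s, hs, rfl⟩
      exact ⟨⟨s, hs⟩, rfl⟩
  rw [hset]
  simp

end Cfsg.Agent.Lib.H16A3Orb
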