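import Cfsg.Agent.Lib.H16A3Defs

set_option autoImplicit false

namespace Cfsg.Agent.Lib.H16A3PartY

open Cfsg Subgroup Equiv Equiv.Perm Cfsg.Agent.Lib.H16A3Defs

/-- PIECE PartY (Mathlib only).  `S₁` normalized by `S`.  `Y := {σ | ∀ u v, v ∈ orb S₁ u ↔ σ v ∈ orb S₁ (σ u)}` is a subgroup (inverse: apply the condition to `σ⁻¹ u, σ⁻¹ v`)
containing `S` (`v = s u → g v = (g s g⁻¹) (g u)`; converse with `g⁻¹ ∈ S`).  It does not contain `Alt(n)`: take `x' ∈ orb S₁ x`, `x' ≠ x` (card ≥ 2; `x ∈ orb S₁ x`), `w ∉ orb S₁ x`,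
`v ∉ {x, x', w}` (`4 ≤ n`); `τ := swap x w * swap w v` is even, `τ x = w`, `τ x' = x'`; `x' ∈ orb S₁ x` but `x' ∉ orb S₁ w` (else `w ∈ orb S₁ x`: orbits are classes).
Conclude with `hU.univ Y`. -/
theorem mem_of_pres {n : ℕ} {S M : Subgroup (Perm (Fin n))} (hU : UM S M) (hn : 4 ≤ n)
    (S₁ : Subgroup (Perm (Fin n))) (hnorm : ∀ g ∈ S, ∀ s ∈ S₁, g * s * g⁻¹ ∈ S₁) (x : Fin n)
    (h2 : 2 ≤ (orb S₁ x).card) (hnu : orb S₁ x ≠ Finset.univ) (σ : Perm (Fin n)) (hsign : sign σ = 1)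
    (hσ : ∀ u v, v ∈ orb S₁ u ↔ σ v ∈ orb S₁ (σ u)) : σ ∈ M := by
  classical
  let Y : Subgroup (Perm (Fin n)) :=
    { carrier := {τ | ∀ u v, v ∈ orb S₁ u ↔ τ v ∈ orb S₁ (τ u)}
      mul_mem' := by
        intro a b ha hb u v
        rw [Equiv.Perm.mul_apply, Equiv.Perm.mul_apply, ← ha, ← hb]
      one_mem' := by
        intro u v
        simp
      inv_mem' := by
        intro a ha u v
        have := ha (a⁻¹ u) (a⁻¹ v)
        have e1 : a (a⁻¹ v) = v := by simp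
        have e2 : a (a⁻¹ u) = u := by simp
        rw [e1, e2] at this
        exact this.symm }
  have hSY : S ≤ Y := by
    intro g hg u v
    constructor
    · intro hv
      obtain ⟨s, hs, hsv⟩ := mem_orb.1 hv
      refine mem_orb.2 ⟨g * s * g⁻¹, hnorm g hg s hs, ?_⟩
      simp [Equiv.Perm.mul_apply, hsv]
    · intro hv
      obtain ⟨s, hs, hsv⟩ := mem_orb.1 hv
      refine mem_orb.2 ⟨g⁻¹ * s * g⁻¹⁻¹, hnorm g⁻¹ (S.inv_mem hg) s hs, ?_⟩
      simp [Equiv.Perm.mul_apply, hsv]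
  have hxx : x ∈ orb S₁ x := mem_orb.2 ⟨1, S₁.one_mem, rfl⟩
  obtain ⟨x', hx', hxx'⟩ : ∃ x' ∈ orb S₁ x, x' ≠ x := by
    by_contra hcon
    push Not at hcon
    have : orb S₁ x ⊆ {x} := fun y hy => Finset.mem_singleton.2 (hcon y hy)
    have := Finset.card_le_card this
    simp at this
    omega
  obtain ⟨w, hw⟩ : ∃ w, w ∉ orb S₁ x := by
    by_contra hcon
    push Not at hcon
    exact hnu (Finset.eq_univ_iff_forall.2 hcon)
  have hwx : w ≠ x := fun h => hw (h ▸ hxx)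
  have hwx' : w ≠ x' := fun h => hw (h ▸ hx')
  obtain ⟨v, hv⟩ : ∃ v, v ∉ ({x, x', w} : Finset (Fin n)) := by
    by_contra hcon
    push Not at hcon
    have h1 : (Finset.univ : Finset (Fin n)) ⊆ {x, x', w} := fun y _ => hcon y
    have h3 := Finset.card_le_card h1
    have h4 : ({x, x', w} : Finset (Fin n)).card ≤ 3 := Finset.card_le_three
    rw [Finset.card_univ, Fintype.card_fin] at h3
    omega
  simp only [Finset.mem_insert, Finset.mem_singleton, not_or] at hv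
  obtain ⟨hvx, hvx', hvw⟩ := hv
  have hnot : ¬ alternatingGroup (Fin n) ≤ Y := by
    intro hle
    have hτ : swap x w * swap w v ∈ alternatingGroup (Fin n) := by
      rw [Equiv.Perm.mem_alternatingGroup, map_mul, sign_swap hwx.symm, sign_swap (Ne.symm hvw)]
      rfl
    have h5 := (hle hτ x x').1 hx'
    have e1 : (swap x w * swap w v) x = w := by
      rw [Equiv.Perm.mul_apply, swap_apply_of_ne_of_ne hwx.symm (Ne.symm hvx), swap_apply_left]
    have e2 : (swap x w * swap w v) x' = x' := by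
      rw [Equiv.Perm.mul_apply, swap_apply_of_ne_of_ne hwx'.symm (Ne.symm hvx'),
        swap_apply_of_ne_of_ne hxx' hwx'.symm]
    rw [e1, e2] at h5
    obtain ⟨s, hs, hsw⟩ := mem_orb.1 h5
    obtain ⟨s', hs', hsx⟩ := mem_orb.1 hx'
    apply hw
    refine mem_orb.2 ⟨s⁻¹ * s', S₁.mul_mem (S₁.inv_mem hs) hs', ?_⟩
    rw [Equiv.Perm.mul_apply, hsx, ← hsw]
    simp
  exact hU.univ Y hSY hnot σ hσ hsign

end Cfsg.Agent.Lib.H16A3PartY
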