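import Cfsg.Agent.Lib.H16A3Defs

set_option autoImplicit false

namespace Cfsg.Agent.Lib.H16A3SwapCls

open Cfsg Subgroup Equiv Equiv.Perm Cfsg.Agent.Lib.H16A3Defs

/-- PIECE SwapCls (pure logic).  `σ` exchanges two classes `T₁`, `T₂` of an equivalence relation and fixes the other points, so it preserves the relation.
Cases `u ∈ T₁ / T₂ / neither` and the same for `v` (if `u ∈ T₁`: `r u v ↔ v ∈ T₁`, `σ u ∈ T₂`, `r (σ u) (σ v) ↔ σ v ∈ T₂ ↔ v ∈ T₁`: for `←` use that `v ∈ T₂` gives `σ v ∈ T₁`, disjoint from `T₂`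
[`T₁ ∩ T₂ = ∅` since a common point `w` would give `v ∈ T₁ ↔ r w v ↔ v ∈ T₂`; use `hne`], and `v ∉ T₁ ∪ T₂` gives `σ v = v ∉ T₂`). -/
theorem pres {n : ℕ} (r : Fin n → Fin n → Prop) (hr : Equivalence r) (T₁ T₂ : Finset (Fin n))
    (hd : Disjoint T₁ T₂) (h1 : ∀ u ∈ T₁, ∀ v, r u v ↔ v ∈ T₁) (h2 : ∀ u ∈ T₂, ∀ v, r u v ↔ v ∈ T₂)
    (σ : Perm (Fin n)) (hσ1 : ∀ x ∈ T₁, σ x ∈ T₂) (hσ2 : ∀ x ∈ T₂, σ x ∈ T₁)
    (hσ3 : ∀ x, x ∉ T₁ → x ∉ T₂ → σ x = x) : ∀ u v, r u v ↔ r (σ u) (σ v) := by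
  have hdis : ∀ x, x ∈ T₁ → x ∈ T₂ → False := fun x hx1 hx2 =>
    (Finset.disjoint_left.1 hd hx1 hx2)
  -- membership of the images
  have m2 : ∀ v, σ v ∈ T₂ ↔ v ∈ T₁ := by
    intro v
    constructor
    · intro hv
      by_contra hv1
      by_cases hv2 : v ∈ T₂
      · exact hdis _ (hσ2 v hv2) hv
      · rw [hσ3 v hv1 hv2] at hv
        exact hv2 hv
    · exact hσ1 v
  have m1 : ∀ v, σ v ∈ T₁ ↔ v ∈ T₂ := by
    intro v
    constructor
    · intro hv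
      by_contra hv2
      by_cases hv1 : v ∈ T₁
      · exact hdis _ hv (hσ1 v hv1)
      · rw [hσ3 v hv1 hv2] at hv
        exact hv1 hv
    · exact hσ2 v
  intro u v
  by_cases hu1 : u ∈ T₁
  · rw [h1 u hu1 v, h2 (σ u) (hσ1 u hu1) (σ v), m2]
  · by_cases hu2 : u ∈ T₂
    · rw [h2 u hu2 v, h1 (σ u) (hσ2 u hu2) (σ v), m1]
    · rw [hσ3 u hu1 hu2]
      by_cases hv1 : v ∈ T₁
      · constructor
        · intro h
          exact absurd ((h1 v hv1 u).1 (hr.symm h)) hu1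
        · intro h
          exact absurd ((h2 (σ v) (hσ1 v hv1) u).1 (hr.symm h)) hu2
      · by_cases hv2 : v ∈ T₂
        · constructor
          · intro h
            exact absurd ((h2 v hv2 u).1 (hr.symm h)) hu2
          · intro h
            exact absurd ((h1 (σ v) (hσ2 v hv2) u).1 (hr.symm h)) hu1
        · rw [hσ3 v hv1 hv2]

end Cfsg.Agent.Lib.H16A3SwapCls
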