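import Cfsg.Agent.Lib.H16AltDefs

set_option autoImplicit false

namespace Cfsg.Agent.Lib.H16AltP1

open Cfsg Subgroup Equiv Equiv.Perm Cfsg.Agent.Lib.H16AltDefs
open scoped Pointwise

/-- two distinct moved points of a 3-cycle are adjacent -/
theorem three_adj {α : Type*} [Fintype α] [DecidableEq α] {g : Perm α} (hg : g.IsThreeCycle) {a b : α}
    (ha : g a ≠ a) (hb : g b ≠ b) (hab : a ≠ b) : g a = b ∨ g b = a := by
  obtain ⟨i, hi⟩ := hg.isCycle.sameCycle ha hb
  have h3 : orderOf g = 3 := hg.orderOf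
  rw [← zpow_mod_orderOf, h3] at hi
  have h0 : 0 ≤ i % 3 := Int.emod_nonneg _ (by norm_num)
  have h1 : i % 3 < 3 := Int.emod_lt_of_pos _ (by norm_num)
  have hg3 : g ^ 3 = 1 := by rw [← h3]; exact pow_orderOf_eq_one g
  generalize i % 3 = j at *
  interval_cases j
  · exact absurd (by simpa using hi) hab
  · left; simpa using hi
  · right
    have h2 : (g ^ 2) a = b := by exact_mod_cast hi
    rw [← h2, ← Perm.mul_apply, ← pow_succ', hg3]
    rfl

/-- PIECE P1 (Mathlib only; KEY LEMMA, LONGEST).  A group `N` generated by 3-cycles contains `Alt(Δ)` for every orbit `Δ`.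
Let `N = closure C`, `Δ` = the `N`-orbit of `x` (as a Finset: `Finset.univ.filter (fun y => ∃ σ ∈ N, σ x = y)`, classical).
 * for `g ∈ C`: `supp g` is one `⟨g⟩`-orbit, so `supp g ⊆ Δ` or disjoint from `Δ`.  `C_Δ := {g ∈ C | supp g ⊆ Δ}`.
 * closure induction: `∀ σ ∈ N, ∃ σ' ∈ closure C_Δ, ∀ y ∈ Δ, σ y = σ' y`.  So `closure C_Δ` is transitive on `Δ`.
 * every `g ∈ C_Δ` is `ofSubtype g'` for a 3-cycle `g'` of `Perm Δ` (`Equiv.Perm.subtypePerm`); `N'' := closure {g'}` is transitive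
   on `Δ`, and primitive: a block `B` with ≥ 2 points: for a generator `g'`, `g' B = B` or `g' B ∩ B = ∅`; the second would give
   `B ⊆ supp g'`, `g' B ⊆ supp g'`, `2 |B| ≤ 3`.  So all generators fix `B`, `B` is invariant, `B = univ`.
 * `Equiv.Perm.alternatingGroup_le_of_isPreprimitive_of_isThreeCycle_mem` : `alternatingGroup Δ ≤ N''`.  Map by `ofSubtype`:
   every `σ ∈ A Δ` is `ofSubtype (σ.subtypePerm _)` with `sign` preserved (`Equiv.Perm.sign_ofSubtype`/`sign_subtypePerm`).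
 * `c ∈ A Δ`: a 3-cycle is even (`IsThreeCycle.sign`), `supp c = {x, c x, c (c x)} ⊆ Δ`. -/
theorem key {n : ℕ} (C : Set (Perm (Fin n))) (hC : ∀ g ∈ C, g.IsThreeCycle) (c : Perm (Fin n))
    (hc : c ∈ C) (x : Fin n) (hx : c x ≠ x) :
    ∃ Δ : Finset (Fin n), (∀ σ ∈ closure C, ∀ y, (y ∈ Δ ↔ σ y ∈ Δ)) ∧ A Δ ≤ closure C ∧ c ∈ A Δ := by
  classical
  set N := closure C with hN
  let Δ : Finset (Fin n) := Finset.univ.filter (fun y => ∃ σ ∈ N, σ x = y)
  have hmem : ∀ y, y ∈ Δ ↔ ∃ σ ∈ N, σ x = y := fun y => by simp [Δ]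
  have hinv : ∀ σ ∈ N, ∀ y, (y ∈ Δ ↔ σ y ∈ Δ) := by
    intro σ hσ y
    rw [hmem, hmem]
    constructor
    · rintro ⟨τ, hτ, rfl⟩
      exact ⟨σ * τ, mul_mem hσ hτ, rfl⟩
    · rintro ⟨τ, hτ, h⟩
      refine ⟨σ⁻¹ * τ, mul_mem (inv_mem hσ) hτ, ?_⟩
      rw [Perm.mul_apply, h]
      simp
  have hxΔ : x ∈ Δ := (hmem x).2 ⟨1, one_mem _, rfl⟩
  -- a generator moving a point of Δ fixes the outside
  have hgen : ∀ g ∈ C, ∀ z ∈ Δ, g z ≠ z → ∀ y, y ∉ Δ → g y = y := by
    intro g hg z hz hgz y hy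
    by_contra hgy
    obtain ⟨i, hi⟩ := (hC g hg).isCycle.sameCycle hgz hgy
    apply hy
    rw [← hi]
    exact (hinv (g ^ i) (zpow_mem (subset_closure hg) i) z).1 hz
  have hcA : c ∈ A Δ := ⟨(hC c hc).sign, hgen c hc x hxΔ hx⟩
  refine ⟨Δ, hinv, ?_, hcA⟩
  -- the restricted group
  let C' : Set (Perm {y // y ∈ Δ}) := {g' | ofSubtype g' ∈ C}
  let G : Subgroup (Perm {y // y ∈ Δ}) := closure C'
  have hC'3 : ∀ g' ∈ C', g'.IsThreeCycle := by
    intro g' hg'
    have := hC _ hg'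
    unfold IsThreeCycle at this ⊢
    rwa [cycleType_ofSubtype] at this
  have hGN : ∀ g' ∈ G, ofSubtype g' ∈ N := by
    intro g' hg'
    have h1 : G.map (ofSubtype : Perm {y // y ∈ Δ} →* Perm (Fin n)) ≤ N := by
      rw [MonoidHom.map_closure, closure_le]
      rintro _ ⟨g, hg, rfl⟩
      exact subset_closure hg
    exact h1 (mem_map_of_mem _ hg')
  -- restriction of elements fixing the outside
  have hres : ∀ τ : Perm (Fin n), (∀ y, y ∉ Δ → τ y = y) → ∀ y, τ y ∈ Δ ↔ y ∈ Δ := by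
    intro τ hτ y
    constructor
    · intro h
      by_contra hy
      rw [hτ y hy] at h
      exact hy h
    · intro h
      by_contra hy
      have := hτ _ hy
      have h2 : τ y = y := τ.injective this
      rw [h2] at hy
      exact hy h
  have hP : ∀ σ ∈ N, ∃ g ∈ G, ∀ z : {y // y ∈ Δ}, ((g z : {y // y ∈ Δ}) : Fin n) = σ z := by
    intro σ hσ
    induction hσ using closure_induction with
    | mem g hg =>
      by_cases h : ∀ y, y ∉ Δ → g y = y
      · refine ⟨g.subtypePerm (hres g h), subset_closure ?_, fun z => rfl⟩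
        show ofSubtype (g.subtypePerm (hres g h)) ∈ C
        rw [ofSubtype_subtypePerm]
        · exact hg
        · intro y hy
          by_contra hyΔ
          exact hy (h y hyΔ)
      · refine ⟨1, one_mem _, fun z => ?_⟩
        by_contra hz
        exact h (hgen g hg z z.2 (fun h' => hz (by simpa using h'.symm)))
    | one => exact ⟨1, one_mem _, fun z => rfl⟩
    | mul σ τ _ _ h1 h2 =>
      obtain ⟨g1, hg1, e1⟩ := h1
      obtain ⟨g2, hg2, e2⟩ := h2
      refine ⟨g1 * g2, mul_mem hg1 hg2, fun z => ?_⟩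
      rw [Perm.mul_apply, e1, e2, Perm.mul_apply]
    | inv σ _ h1 =>
      obtain ⟨g1, hg1, e1⟩ := h1
      refine ⟨g1⁻¹, inv_mem hg1, fun z => ?_⟩
      have := e1 (g1⁻¹ z)
      have h3 : g1 (g1⁻¹ z) = z := by simp
      rw [h3] at this
      rw [this]
      simp
  have htrans : ∀ z : {y // y ∈ Δ}, ∃ g ∈ G, g ⟨x, hxΔ⟩ = z := by
    intro z
    obtain ⟨σ, hσ, h⟩ := (hmem z.1).1 z.2
    obtain ⟨g, hg, e⟩ := hP σ hσ
    exact ⟨g, hg, Subtype.ext (by rw [e, h])⟩
  haveI : MulAction.IsPretransitive ↥G {y // y ∈ Δ} := by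
    refine ⟨fun a b => ?_⟩
    obtain ⟨g1, hg1, e1⟩ := htrans a
    obtain ⟨g2, hg2, e2⟩ := htrans b
    refine ⟨⟨g2 * g1⁻¹, mul_mem hg2 (inv_mem hg1)⟩, ?_⟩
    show (g2 * g1⁻¹) a = b
    rw [Perm.mul_apply, ← e1]
    simpa using e2
  have hprim : MulAction.IsPreprimitive ↥G {y // y ∈ Δ} := by
    refine { isTrivialBlock_of_isBlock := ?_ }
    intro B hB
    by_cases hsub : B.Subsingleton
    · exact Or.inl hsub
    right
    rw [Set.not_subsingleton_iff] at hsub
    obtain ⟨a, ha, b, hb, hab⟩ := hsub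
    have hst : G ≤ MulAction.stabilizer (Perm {y // y ∈ Δ}) B := by
      show closure C' ≤ _
      rw [closure_le]
      intro g hg
      have hgG : g ∈ G := subset_closure hg
      show g ∈ MulAction.stabilizer (Perm {y // y ∈ Δ}) B
      rw [MulAction.mem_stabilizer_iff]
      have key : ∀ w ∈ B, g w ∈ B → g • B = B := by
        intro w hw hgw
        exact hB.smul_eq_of_mem (g := ⟨g, hgG⟩) hw hgw
      by_cases h1 : g a = a
      · exact key a ha (by rw [h1]; exact ha)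
      by_cases h2 : g b = b
      · exact key b hb (by rw [h2]; exact hb)
      rcases three_adj (hC'3 g hg) h1 h2 hab with h | h
      · exact key a ha (by rw [h]; exact hb)
      · exact key b hb (by rw [h]; exact ha)
    rw [Set.eq_univ_iff_forall]
    intro z
    obtain ⟨g, hg⟩ := MulAction.exists_smul_eq ↥G a z
    have h1 := hst g.2
    rw [MulAction.mem_stabilizer_iff] at h1
    rw [← h1, ← hg]
    exact Set.smul_mem_smul_set ha
  have hc' : c.subtypePerm (hres c hcA.2) ∈ C' := by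
    show ofSubtype (c.subtypePerm (hres c hcA.2)) ∈ C
    rw [ofSubtype_subtypePerm]
    · exact hc
    · intro y hy
      by_contra hyΔ
      exact hy (hcA.2 y hyΔ)
  have hJ : alternatingGroup {y // y ∈ Δ} ≤ G :=
    alternatingGroup_le_of_isPreprimitive_of_isThreeCycle_mem hprim (hC'3 _ hc') (subset_closure hc')
  intro τ hτ
  have h1 : ofSubtype (τ.subtypePerm (hres τ hτ.2)) = τ := by
    rw [ofSubtype_subtypePerm]
    intro y hy
    by_contra hyΔ
    exact hy (hτ.2 y hyΔ)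
  have h2 : τ.subtypePerm (hres τ hτ.2) ∈ alternatingGroup {y // y ∈ Δ} := by
    rw [mem_alternatingGroup, ← sign_ofSubtype, h1]
    exact hτ.1
  rw [← h1]
  exact hGN _ (hJ h2)

end Cfsg.Agent.Lib.H16AltP1
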