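import Cfsg.Agent.Lib.H16A3Defs
import Cfsg.Agent.Lib.H16AltP1
import Cfsg.Agent.Lib.H16AltInj
import Cfsg.Agent.Lib.H16A3Orb

set_option autoImplicit false

namespace Cfsg.Agent.Lib.H16A3Tri

open Cfsg Subgroup Equiv Equiv.Perm Cfsg.Agent.Lib.H16A3Defs

/-- PIECE Tri.  The orbits of `T3 S` (generated by the 3-cycles of the 3-group `S`) are the supports of these 3-cycles. -/
theorem orb_eq_support {n : ℕ} {S : Subgroup (Perm (Fin n))} (hp : IsPGroup 3 S) (c : Perm (Fin n)) (hc : c ∈ S)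
    (h3 : c.IsThreeCycle) (x : Fin n) (hx : c x ≠ x) : orb (T3 S) x = c.support := by
  classical
  obtain ⟨Δ, hinv, hA, hcA⟩ := H16AltP1.key {c | c ∈ S ∧ c.IsThreeCycle} (fun g hg => hg.2) c
    ⟨hc, h3⟩ x hx
  have hT3S : closure {c | c ∈ S ∧ c.IsThreeCycle} ≤ S := (closure_le _).2 (fun g hg => hg.1)
  have hsub : c.support ⊆ Δ := by
    intro y hy
    rw [Perm.mem_support] at hy
    by_contra hyΔ
    exact hy (hcA.2 y hyΔ)
  have hle : Δ.card ≤ 3 := by
    by_contra hlt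
    have h4 : 3 < Δ.card := by omega
    obtain ⟨p, hpΔ, q, hqΔ, r, hrΔ, hpq, hpr, hqr⟩ := Finset.two_lt_card.1 (by omega : 2 < Δ.card)
    have hcard : ({p, q, r} : Finset (Fin n)).card < Δ.card :=
      lt_of_le_of_lt Finset.card_le_three h4
    obtain ⟨s, hsΔ, hs⟩ := Finset.exists_mem_notMem_of_card_lt_card hcard
    simp only [Finset.mem_insert, Finset.mem_singleton, not_or] at hs
    obtain ⟨hsp, hsq, hsr⟩ := hs
    have hgA : swap p q * swap r s ∈ H16AltDefs.A Δ := by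
      rw [H16AltDefs.mem_A]
      refine ⟨?_, ?_⟩
      · rw [map_mul, sign_swap hpq, sign_swap (Ne.symm hsr)]; rfl
      · intro w hw
        have h1 : w ≠ p := fun h => hw (h ▸ hpΔ)
        have h2 : w ≠ q := fun h => hw (h ▸ hqΔ)
        have h3 : w ≠ r := fun h => hw (h ▸ hrΔ)
        have h4 : w ≠ s := fun h => hw (h ▸ hsΔ)
        rw [Perm.mul_apply, swap_apply_of_ne_of_ne h3 h4, swap_apply_of_ne_of_ne h1 h2]
    have hgS : swap p q * swap r s ∈ S := hT3S (hA hgA)
    have hdisj : Perm.Disjoint (swap p q) (swap r s) := by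
      apply Perm.disjoint_swap_swap
      simp only [List.nodup_cons, List.mem_cons, List.not_mem_nil, or_false, not_or,
        List.nodup_nil, and_true, not_false_eq_true]
      exact ⟨⟨hpq, hpr, Ne.symm hsp⟩, ⟨hqr, Ne.symm hsq⟩, Ne.symm hsr⟩
    have hsq : (swap p q * swap r s) ^ 2 = 1 := by
      rw [hdisj.commute.mul_pow, sq, sq, swap_mul_self, swap_mul_self, one_mul]
    obtain ⟨k, hk⟩ := hp ⟨_, hgS⟩
    have hk' : (swap p q * swap r s) ^ 3 ^ k = 1 := by
      have := congrArg Subtype.val hk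
      simpa using this
    have h1 := pow_gcd_eq_one.2 ⟨hsq, hk'⟩
    have hcop : Nat.gcd 2 (3 ^ k) = 1 := Nat.Coprime.pow_right k (by norm_num)
    rw [hcop, pow_one] at h1
    have h2 := congrArg (fun f : Perm (Fin n) => f p) h1
    simp only [Perm.mul_apply, Perm.one_apply] at h2
    rw [swap_apply_of_ne_of_ne hpr (Ne.symm hsp), swap_apply_left] at h2
    exact hpq h2.symm
  have hΔ : c.support = Δ :=
    Finset.eq_of_subset_of_card_le hsub (by rw [h3.card_support]; exact hle)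
  ext y
  rw [mem_orb]
  constructor
  · rintro ⟨s, hs, rfl⟩
    rw [hΔ]
    exact (hinv s hs x).1 (hsub (Perm.mem_support.2 hx))
  · intro hy
    rw [Perm.mem_support] at hy
    obtain ⟨i, hi⟩ := h3.isCycle.sameCycle hx hy
    have hcT : c ∈ T3 S := Subgroup.subset_closure (show c ∈ {c | c ∈ S ∧ c.IsThreeCycle} from ⟨hc, h3⟩)
    exact ⟨c ^ i, zpow_mem hcT i, hi⟩

end Cfsg.Agent.Lib.H16A3Tri
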