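import Cfsg.Agent.Lib.H16A3Defs
import Cfsg.Agent.Lib.H16A3Tri
import Cfsg.Agent.Lib.H16A3ExSigma
import Cfsg.Agent.Lib.H16A3SwapCls
import Cfsg.Agent.Lib.H16A3PartY
import Cfsg.Agent.Lib.H16A3Orb

set_option autoImplicit false

namespace Cfsg.Agent.Lib.H16A3Cross

open Cfsg Subgroup Equiv Equiv.Perm Cfsg.Agent.Lib.H16A3Defs

/-- PIECE Cross.  `S₁ := T3 S` is normalized by `S` (closure induction; a conjugate of a 3-cycle of `S` by `g ∈ S` is a 3-cycle of `S`: `cycleType_conj`).
`T₁ := c.support`, `T₂ := c'.support` are orbits of `T3 S` (`H16A3Tri.orb_eq_support`), different, hence disjoint (`H16A3Orb.orb_eq_of_mem`).  `σ` from `H16A3ExSigma.exists_sigma`.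
`r u v := v ∈ orb (T3 S) u` is an equivalence relation; `H16A3SwapCls.pres` gives the hypothesis `hσ` of `H16A3PartY.mem_of_pres` (with `x ∈ T₁`: `orb = T₁` has 3 points, `≠ univ` as `5 ≤ n`). -/
theorem cross {n : ℕ} {S M : Subgroup (Perm (Fin n))} (hU : UM S M) (hn : 5 ≤ n) (c c' : Perm (Fin n))
    (hc : c ∈ S) (hc' : c' ∈ S) (h3 : c.IsThreeCycle) (h3' : c'.IsThreeCycle) (hne : c.support ≠ c'.support) :
    ∃ σ ∈ M, (∀ x ∈ c.support, σ x ∈ c'.support) ∧ (∀ x, x ∉ c.support → x ∉ c'.support → σ x = x) := by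
  classical
  have hnorm : ∀ g ∈ S, ∀ s ∈ T3 S, g * s * g⁻¹ ∈ T3 S := by
    intro g hg s hs
    unfold T3 at hs ⊢
    induction hs using Subgroup.closure_induction with
    | mem y hy =>
      apply Subgroup.subset_closure
      refine ⟨S.mul_mem (S.mul_mem hg hy.1) (S.inv_mem hg), ?_⟩
      have := hy.2
      unfold IsThreeCycle at this ⊢
      rw [cycleType_conj]
      exact this
    | one => rw [mul_one, mul_inv_cancel]; exact Subgroup.one_mem _
    | mul a b _ _ iha ihb =>
      have e : g * (a * b) * g⁻¹ = (g * a * g⁻¹) * (g * b * g⁻¹) := by group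
      rw [e]
      exact Subgroup.mul_mem _ iha ihb
    | inv a _ iha =>
      have e : g * a⁻¹ * g⁻¹ = (g * a * g⁻¹)⁻¹ := by group
      rw [e]
      exact Subgroup.inv_mem _ iha
  have o1 : ∀ x ∈ c.support, orb (T3 S) x = c.support := fun x hx =>
    H16A3Tri.orb_eq_support hU.pS c hc h3 x (mem_support.1 hx)
  have o2 : ∀ x ∈ c'.support, orb (T3 S) x = c'.support := fun x hx =>
    H16A3Tri.orb_eq_support hU.pS c' hc' h3' x (mem_support.1 hx)
  have hd : Disjoint c.support c'.support := by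
    rw [Finset.disjoint_left]
    intro w hw hw'
    exact hne ((o1 w hw).symm.trans (o2 w hw'))
  obtain ⟨σ, hsign, s1, s2, s3⟩ := H16A3ExSigma.exists_sigma c.support c'.support h3.card_support
    h3'.card_support hd
  have hr : Equivalence (fun u v : Fin n => v ∈ orb (T3 S) u) := by
    refine ⟨fun u => H16A3Orb.self_mem _ u, ?_, ?_⟩
    · intro u v h
      rw [H16A3Orb.orb_eq_of_mem h]
      exact H16A3Orb.self_mem _ u
    · intro u v w h1 h2
      rw [← H16A3Orb.orb_eq_of_mem h1]
      exact h2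
  have hpres := H16A3SwapCls.pres (fun u v : Fin n => v ∈ orb (T3 S) u) hr c.support c'.support hd
    (fun u hu v => by rw [o1 u hu]) (fun u hu v => by rw [o2 u hu]) σ s1 s2 s3
  obtain ⟨x, hx⟩ : c.support.Nonempty := Finset.card_pos.1 (by rw [h3.card_support]; norm_num)
  refine ⟨σ, H16A3PartY.mem_of_pres hU (by omega) (T3 S) hnorm x ?_ ?_ σ hsign hpres, s1, s3⟩
  · rw [o1 x hx, h3.card_support]
    norm_num
  · intro h
    have := congrArg Finset.card h
    rw [o1 x hx, h3.card_support, Finset.card_univ, Fintype.card_fin] at this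
    omega

end Cfsg.Agent.Lib.H16A3Cross
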