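import Cfsg.Agent.Lib.H16A3Defs

set_option autoImplicit false

namespace Cfsg.Agent.Lib.H16A3FullLink

open Cfsg Subgroup Equiv Equiv.Perm Cfsg.Agent.Lib.H16A3Defs

theorem link_of_full {n : ℕ} {M : Subgroup (Perm (Fin n))} {E : Finset (Fin n)} (hE : Full M E)
    (h3 : 3 ≤ E.card) {x y : Fin n} (hx : x ∈ E) (hy : y ∈ E) (hxy : x ≠ y) : Link M x y := by
  have hc : 0 < ((E.erase x).erase y).card := by
    rw [Finset.card_erase_of_mem (Finset.mem_erase.mpr ⟨hxy.symm, hy⟩), Finset.card_erase_of_mem hx]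
    omega
  obtain ⟨z, hz⟩ := Finset.card_pos.mp hc
  rw [Finset.mem_erase, Finset.mem_erase] at hz
  obtain ⟨hzy, hzx, hzE⟩ := hz
  refine ⟨swap x y * swap y z, hE x y z hx hy hzE hxy hzx.symm hzy.symm, ?_, ?_, ?_⟩
  · rw [swap_comm x y]
    exact isThreeCycle_swap_mul_swap_same hxy.symm hzy.symm hzx.symm
  · rw [Perm.mul_apply, swap_apply_of_ne_of_ne hxy hzx.symm, swap_apply_left]
    exact hxy.symm
  · rw [Perm.mul_apply, swap_apply_left, swap_apply_of_ne_of_ne hzx hzy]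
    exact hzy

end Cfsg.Agent.Lib.H16A3FullLink
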