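import Cfsg.Agent.Lib.H16A3Defs
import Cfsg.Agent.Lib.H16AltP1

set_option autoImplicit false

namespace Cfsg.Agent.Lib.H16A3Gen

open Cfsg Subgroup Equiv Equiv.Perm Cfsg.Agent.Lib.H16A3Defs

/-- PIECE Gen.  If all points are connected to `x₀` by chains of 3-cycles of `M`, then `Alt(n) ≤ M`. -/
theorem alt_le {n : ℕ} (M : Subgroup (Perm (Fin n))) (x₀ : Fin n)
    (h : ∀ y, Relation.ReflTransGen (Link M) x₀ y) : alternatingGroup (Fin n) ≤ M := by
  by_cases hex : ∃ y, y ≠ x₀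
  · obtain ⟨y, hy⟩ := hex
    obtain ⟨c, hcM, hc3, hcx⟩ : ∃ c ∈ M, c.IsThreeCycle ∧ c x₀ ≠ x₀ := by
      rcases Relation.ReflTransGen.cases_head (h y) with h1 | ⟨w, ⟨c, hc, h3, hx, _⟩, _⟩
      · exact absurd h1.symm hy
      · exact ⟨c, hc, h3, hx⟩
    set C : Set (Perm (Fin n)) := {g | g ∈ M ∧ g.IsThreeCycle} with hC
    obtain ⟨Δ, hΔ, hA, hcA⟩ := Cfsg.Agent.Lib.H16AltP1.key C (fun g hg => hg.2) c ⟨hcM, hc3⟩ x₀ hcx
    have hCM : closure C ≤ M := by
      rw [closure_le]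
      intro g hg
      exact hg.1
    have hx₀ : x₀ ∈ Δ := by
      by_contra hx
      exact hcx (hcA.2 x₀ hx)
    have hall : ∀ y, y ∈ Δ := by
      intro y
      induction h y with
      | refl => exact hx₀
      | tail _ hlink ih =>
        obtain ⟨c', hc'M, hc'3, hu, hv⟩ := hlink
        obtain ⟨k, hk⟩ := hc'3.isCycle.sameCycle hu hv
        have hc'C : c' ∈ C := ⟨hc'M, hc'3⟩
        have hmem : c' ^ k ∈ closure C := Subgroup.zpow_mem _ (Subgroup.subset_closure hc'C) k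
        rw [← hk]
        exact (hΔ _ hmem _).1 ih
    intro σ hσ
    apply hCM
    apply hA
    rw [Cfsg.Agent.Lib.H16AltDefs.mem_A]
    exact ⟨mem_alternatingGroup.1 hσ, fun x hx => absurd (hall x) hx⟩
  · push Not at hex
    intro σ _
    have : σ = 1 := by
      ext x
      rw [hex (σ x), hex x]
      simp [hex]
    rw [this]
    exact M.one_mem

end Cfsg.Agent.Lib.H16A3Gen
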