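import Cfsg.Agent.Lib.H16A3Defs
import Cfsg.Agent.Lib.H16A3Cross
import Cfsg.Agent.Lib.H16A3Gen
import Cfsg.Agent.Lib.H16A3FullLink

set_option autoImplicit false

namespace Cfsg.Agent.Lib.H16A3Key

open Cfsg Subgroup Equiv Equiv.Perm Cfsg.Agent.Lib.H16A3Defs

/-- PIECE Key. -/
theorem key {n : ℕ} {S M : Subgroup (Perm (Fin n))} (hU : UM S M) (hn : 5 ≤ n)
    (hcov : ∀ p, ∃ c ∈ S, c.IsThreeCycle ∧ c p ≠ p) (E : Finset (Fin n)) (hE : Full M E) (h8 : 8 ≤ E.card) :
    False := by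
  classical
  obtain ⟨x₀, hx₀⟩ : E.Nonempty := Finset.card_pos.1 (by omega)
  apply hU.notall
  apply H16A3Gen.alt_le M x₀
  intro p
  by_cases hpE : p ∈ E
  · by_cases hpx : p = x₀
    · rw [hpx]
    · exact Relation.ReflTransGen.single
        (H16A3FullLink.link_of_full hE (by omega) hx₀ hpE (Ne.symm hpx))
  obtain ⟨c', hc', h3', hc'p⟩ := hcov p
  obtain ⟨c, hc, h3, hcx⟩ := hcov x₀
  by_cases hsup : c.support = c'.support
  · have hcp : c p ≠ p := by
      rw [← Equiv.Perm.mem_support, hsup, Equiv.Perm.mem_support]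
      exact hc'p
    exact Relation.ReflTransGen.single ⟨c, hU.le hc, h3, hcx, hcp⟩
  obtain ⟨σ, hσM, hσ1, hσ2⟩ := H16A3Cross.cross hU hn c c' hc hc' h3 h3' hsup
  have hcard : 1 < (E \ (c.support ∪ c'.support)).card := by
    have h1 : (c.support ∪ c'.support).card ≤ 6 := by
      have := Finset.card_union_le c.support c'.support
      rw [h3.card_support, h3'.card_support] at this
      exact this
    have h2 := Finset.le_card_sdiff (c.support ∪ c'.support) E
    omega
  obtain ⟨y, hy, z, hz, hyz⟩ := Finset.one_lt_card.1 hcard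
  rw [Finset.mem_sdiff, Finset.mem_union, not_or] at hy hz
  obtain ⟨hyE, hyc, hyc'⟩ := hy
  obtain ⟨hzE, hzc, hzc'⟩ := hz
  have hx₀c : x₀ ∈ c.support := Equiv.Perm.mem_support.2 hcx
  have hxy : x₀ ≠ y := fun h => hyc (h ▸ hx₀c)
  have hxz : x₀ ≠ z := fun h => hzc (h ▸ hx₀c)
  have hd : swap x₀ y * swap y z ∈ M := hE x₀ y z hx₀ hyE hzE hxy hxz hyz
  set w := σ x₀ with hw
  have hwc' : w ∈ c'.support := hσ1 x₀ hx₀c
  have hwy : w ≠ y := fun h => hyc' (h ▸ hwc')
  have hwz : w ≠ z := fun h => hzc' (h ▸ hwc')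
  have he : swap w y * swap y z ∈ M := by
    have h1 : swap w y * swap y z = σ * (swap x₀ y * swap y z) * σ⁻¹ := by
      have hσy : σ y = y := hσ2 y hyc hyc'
      have hσz : σ z = z := hσ2 z hzc hzc'
      have e1 : swap w y = σ * swap x₀ y * σ⁻¹ := by
        rw [← Equiv.swap_apply_apply, hσy]
      have e2 : swap y z = σ * swap y z * σ⁻¹ := by
        rw [← Equiv.swap_apply_apply, hσy, hσz]
      rw [e1]
      conv_lhs => rw [e2]
      group
    rw [h1]
    exact M.mul_mem (M.mul_mem hσM hd) (M.inv_mem hσM)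
  have he3 : (swap w y * swap y z).IsThreeCycle := by
    rw [swap_comm w y]
    exact Equiv.Perm.isThreeCycle_swap_mul_swap_same (Ne.symm hwy) hyz hwz
  have hew : (swap w y * swap y z) w ≠ w := by
    rw [Equiv.Perm.mul_apply, swap_apply_of_ne_of_ne hwy hwz, swap_apply_left]
    exact Ne.symm hwy
  have hey : (swap w y * swap y z) y ≠ y := by
    rw [Equiv.Perm.mul_apply, swap_apply_left, swap_apply_of_ne_of_ne (Ne.symm hwz) (Ne.symm hyz)]
    exact Ne.symm hyz
  have l1 : Link M x₀ y := H16A3FullLink.link_of_full hE (by omega) hx₀ hyE hxy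
  have l2 : Link M y w := ⟨_, he, he3, hey, hew⟩
  have l3 : Link M w p := ⟨c', hU.le hc', h3', Equiv.Perm.mem_support.1 hwc', hc'p⟩
  exact ((Relation.ReflTransGen.single l1).tail l2).tail l3

end Cfsg.Agent.Lib.H16A3Key
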