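import Cfsg.Agent.Lib.H16A3Defs

set_option autoImplicit false

namespace Cfsg.Agent.Lib.H16A3St

open Cfsg Subgroup Equiv Equiv.Perm Cfsg.Agent.Lib.H16A3Defs

/-- the setwise stabiliser -/
def stbGrp {n : ℕ} (Γ : Finset (Fin n)) : Subgroup (Perm (Fin n)) where
  carrier := {σ | Stb σ Γ}
  one_mem' := fun _ => Iff.rfl
  mul_mem' := by
    intro a b ha hb x
    exact (hb x).trans (ha (b x))
  inv_mem' := by
    intro a ha x
    have h1 := ha (a⁻¹ x)
    have e : a (a⁻¹ x) = x := a.apply_symm_apply x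
    rw [e] at h1
    exact h1.symm

theorem stb_swap {n : ℕ} (Γ : Finset (Fin n)) (a b : Fin n) (h : a ∈ Γ ↔ b ∈ Γ) :
    swap a b ∈ stbGrp Γ := by
  intro w
  by_cases h1 : w = a
  · subst h1
    rw [swap_apply_left]
    exact h
  · by_cases h2 : w = b
    · subst h2
      rw [swap_apply_right]
      exact h.symm
    · rw [swap_apply_of_ne_of_ne h1 h2]

/-- PIECE St (Mathlib only).  `Y := {σ | Stb σ Γ}` is a subgroup containing `S`.  It does not contain `Alt(n)`: `x ∈ Γ`, `y ∉ Γ`, a third point `z` (`3 ≤ n`):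
`swap x y * swap y z` is even (`sign_swap`) and maps `x ↦ y`.  3-cycles `swap x y * swap y z` with `x y z ∈ Γ` (resp. `∉ Γ`) stabilize `Γ` (they fix the points other than
`x y z` and permute `x y z`) and are even, so they lie in `M` by `hU.univ`. -/
theorem full_of_inv {n : ℕ} {S M : Subgroup (Perm (Fin n))} (hU : UM S M) (hn : 3 ≤ n) (Γ : Finset (Fin n))
    (hinv : ∀ s ∈ S, Stb s Γ) (hne : Γ.Nonempty) (hnu : Γ ≠ Finset.univ) : Full M Γ ∧ Full M Γᶜ := by
  have hSY : S ≤ stbGrp Γ := fun s hs => hinv s hs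
  obtain ⟨x, hx⟩ := hne
  obtain ⟨y, hy⟩ : ∃ y, y ∉ Γ := by
    by_contra h
    push Not at h
    exact hnu (Finset.eq_univ_iff_forall.2 h)
  have hxy : x ≠ y := fun e => hy (e ▸ hx)
  obtain ⟨z, -, hz⟩ := Finset.exists_mem_notMem_of_card_lt_card
    (s := ({x, y} : Finset (Fin n))) (t := Finset.univ) (by
      rw [Finset.card_univ, Fintype.card_fin]
      exact lt_of_le_of_lt (Finset.card_le_two) (by omega))
  have hzx : z ≠ x := fun e => hz (by rw [e]; simp)
  have hzy : z ≠ y := fun e => hz (by rw [e]; simp)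
  have hsign : ∀ a b c : Fin n, a ≠ b → b ≠ c → sign (swap a b * swap b c) = 1 := by
    intro a b c hab hbc
    rw [Perm.sign_mul, sign_swap hab, sign_swap hbc]
    rfl
  have hnot : ¬ alternatingGroup (Fin n) ≤ stbGrp Γ := by
    intro h
    have h1 : swap x y * swap y z ∈ alternatingGroup (Fin n) :=
      mem_alternatingGroup.2 (hsign x y z hxy hzy.symm)
    have h2 : Stb (swap x y * swap y z) Γ := h h1
    have h3 := (h2 x).1 hx
    rw [Perm.mul_apply, swap_apply_of_ne_of_ne hxy hzx.symm, swap_apply_left] at h3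
    exact hy h3
  constructor
  · intro a b c ha hb hc hab hac hbc
    apply hU.univ (stbGrp Γ) hSY hnot _ _ (hsign a b c hab hbc)
    exact mul_mem (s := stbGrp Γ) (stb_swap Γ a b ⟨fun _ => hb, fun _ => ha⟩)
      (stb_swap Γ b c ⟨fun _ => hc, fun _ => hb⟩)
  · intro a b c ha hb hc hab hac hbc
    rw [Finset.mem_compl] at ha hb hc
    apply hU.univ (stbGrp Γ) hSY hnot _ _ (hsign a b c hab hbc)
    exact mul_mem (s := stbGrp Γ) (stb_swap Γ a b ⟨fun h => absurd h ha, fun h => absurd h hb⟩)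
      (stb_swap Γ b c ⟨fun h => absurd h hb, fun h => absurd h hc⟩)

end Cfsg.Agent.Lib.H16A3St
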