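import Cfsg.Agent.Lib.H16A3Defs
import Cfsg.Agent.Lib.H16A3St
import Cfsg.Agent.Lib.H16A3Key
import Cfsg.Agent.Lib.H16A3Cover
import Cfsg.Agent.Lib.H16A3Orb

set_option autoImplicit false

namespace Cfsg.Agent.Lib.H16A3CaseD

open Cfsg Subgroup Equiv Equiv.Perm Cfsg.Agent.Lib.H16A3Defs

/-- PIECE CaseD.  `3 ∣ n` (`b ≥ 1`, `a ≥ 2`): `H16A3Cover.cover`.  `E := orb S x` is invariant, nonempty, `≠ univ` (`y ∉ E`, else the orbits agree): `Full M E` (`H16A3St.full_of_inv`); `E.card = 3 ^ a ≥ 9`.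
`H16A3Key.key`. -/
theorem caseD {n : ℕ} {S M : Subgroup (Perm (Fin n))} (hU : UM S M) (hn : 5 ≤ n) (x y : Fin n)
    (hxy : orb S x ≠ orb S y) (a b : ℕ) (ha : (orb S x).card = 3 ^ a) (ha2 : 2 ≤ a) (hb1 : 1 ≤ b)
    (hnab : n = 3 ^ a + 3 ^ b) : False := by
  have h3 : 3 ∣ n := by
    rw [hnab]
    exact dvd_add (dvd_pow_self 3 (by omega)) (dvd_pow_self 3 (by omega))
  have hne : (orb S x).Nonempty := ⟨x, H16A3Orb.self_mem S x⟩
  have hnu : orb S x ≠ Finset.univ := by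
    intro h
    have hy : y ∈ orb S x := by rw [h]; exact Finset.mem_univ y
    exact hxy (H16A3Orb.orb_eq_of_mem hy).symm
  have hfull := (H16A3St.full_of_inv hU (by omega) (orb S x) (H16A3Orb.stb_orb x) hne hnu).1
  have h9 : 8 ≤ (orb S x).card := by
    rw [ha]
    calc 8 ≤ 3 ^ 2 := by norm_num
      _ ≤ 3 ^ a := Nat.pow_le_pow_right (by norm_num) ha2
  exact H16A3Key.key hU hn (H16A3Cover.cover hU.syl h3) _ hfull h9

end Cfsg.Agent.Lib.H16A3CaseD
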