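import Cfsg.Agent.Lib.H16A3Defs
import Cfsg.Agent.Lib.H16A3Orb
import Cfsg.Agent.Lib.Helper3PGroup

set_option autoImplicit false

namespace Cfsg.Agent.Lib.H16A3MaxSub

open Cfsg Subgroup Equiv Equiv.Perm Cfsg.Agent.Lib.H16A3Defs

/-- PIECE MaxSub.  A transitive 3-group `S` on `n ≥ 2` points has a normal subgroup `S₁` of index 3
containing the stabilizer of `x`; its orbit of `x` has `n / 3` points. -/
theorem exists_sub {n : ℕ} {S : Subgroup (Perm (Fin n))} (hp : IsPGroup 3 S) (x : Fin n)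
    (htr : orb S x = Finset.univ) (hn : 2 ≤ n) : ∃ S₁ : Subgroup (Perm (Fin n)), S₁ ≤ S ∧
      (∀ g ∈ S, ∀ s ∈ S₁, g * s * g⁻¹ ∈ S₁) ∧ 3 * (orb S₁ x).card = n := by
  classical
  haveI : Fact (Nat.Prime 3) := ⟨Nat.prime_three⟩
  let St : Subgroup S := MulAction.stabilizer S x
  have hSt : St ≠ ⊤ := by
    intro htop
    obtain ⟨y, hy⟩ : ∃ y : Fin n, y ≠ x := by
      haveI : Nontrivial (Fin n) := Fin.nontrivial_iff_two_le.2 hn
      exact exists_ne x
    have hy' : y ∈ orb S x := by rw [htr]; exact Finset.mem_univ y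
    obtain ⟨s, hs, hsx⟩ := mem_orb.1 hy'
    have hmem : (⟨s, hs⟩ : S) ∈ St := by rw [htop]; trivial
    have h2 : s x = x := MulAction.mem_stabilizer_iff.1 hmem
    exact hy (hsx.symm.trans h2)
  obtain ⟨L, hL, hStL⟩ := (eq_top_or_exists_le_coatom St).resolve_left hSt
  have hLn := Helper3PGroup.coatom_normal hp hL
  have hLi : L.index = 3 := Helper3PGroup.coatom_index hp hL
  refine ⟨L.map S.subtype, ?_, ?_, ?_⟩
  · rintro _ ⟨l, _, rfl⟩
    exact l.2
  · rintro g hg _ ⟨l, hl, rfl⟩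
    exact ⟨⟨g, hg⟩ * l * ⟨g, hg⟩⁻¹, hLn.conj_mem l hl ⟨g, hg⟩, rfl⟩
  · have h1 : St.index = n := by
      rw [MulAction.index_stabilizer]
      have hset : MulAction.orbit S x = ((orb S x : Finset (Fin n)) : Set (Fin n)) := by
        ext y
        rw [Finset.mem_coe, mem_orb, MulAction.mem_orbit_iff]
        constructor
        · rintro ⟨s, rfl⟩
          exact ⟨s, s.2, rfl⟩
        · rintro ⟨s, hs, rfl⟩
          exact ⟨⟨s, hs⟩, rfl⟩
      rw [hset, Set.ncard_coe_finset, htr]
      simp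
    have h2 : St.relIndex L = (orb (L.map S.subtype) x).card := by
      have hst : St.subgroupOf L = MulAction.stabilizer L x := by
        ext l
        rfl
      unfold Subgroup.relIndex
      rw [hst, MulAction.index_stabilizer]
      have hset : MulAction.orbit L x =
          ((orb (L.map S.subtype) x : Finset (Fin n)) : Set (Fin n)) := by
        ext y
        rw [Finset.mem_coe, mem_orb, MulAction.mem_orbit_iff]
        constructor
        · rintro ⟨l, rfl⟩
          exact ⟨_, ⟨l.1, l.2, rfl⟩, rfl⟩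
        · rintro ⟨_, ⟨l, hl, rfl⟩, rfl⟩
          exact ⟨⟨l, hl⟩, rfl⟩
      rw [hset, Set.ncard_coe_finset]
    have h3 := Subgroup.relIndex_mul_index hStL
    rw [h1, hLi, h2] at h3
    omega

end Cfsg.Agent.Lib.H16A3MaxSub
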