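import Cfsg.Agent.Lib.H16A3Defs
import Cfsg.Agent.Lib.H16A3PartY
import Cfsg.Agent.Lib.H16A3Orb

set_option autoImplicit false

namespace Cfsg.Agent.Lib.H16A3Part

open Cfsg Subgroup Equiv Equiv.Perm Cfsg.Agent.Lib.H16A3Defs

theorem full_orb {n : ℕ} {S M : Subgroup (Perm (Fin n))} (hU : UM S M) (hn : 4 ≤ n)
    (S₁ : Subgroup (Perm (Fin n))) (hnorm : ∀ g ∈ S, ∀ s ∈ S₁, g * s * g⁻¹ ∈ S₁) (x : Fin n)
    (h2 : 2 ≤ (orb S₁ x).card) (hnu : orb S₁ x ≠ Finset.univ) : Full M (orb S₁ x) := by
  intro p q r hp hq hr hpq hpr hqr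
  apply H16A3PartY.mem_of_pres hU hn S₁ hnorm x h2 hnu
  · rw [map_mul, sign_swap hpq, sign_swap hqr]; decide
  · have key : ∀ u, (swap p q * swap q r) u ∈ orb S₁ u := by
      intro u
      by_cases hu : u ∈ orb S₁ x
      · rw [H16A3Orb.orb_eq_of_mem hu, Perm.mul_apply]
        have h1 : swap q r u ∈ orb S₁ x := by
          rw [swap_apply_def]
          split_ifs
          · exact hr
          · exact hq
          · exact hu
        rw [swap_apply_def]
        split_ifs
        · exact hq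
        · exact hp
        · exact h1
      · have e1 : u ≠ p := fun h => hu (h ▸ hp)
        have e2 : u ≠ q := fun h => hu (h ▸ hq)
        have e3 : u ≠ r := fun h => hu (h ▸ hr)
        rw [Perm.mul_apply, swap_apply_of_ne_of_ne e2 e3, swap_apply_of_ne_of_ne e1 e2]
        exact H16A3Orb.self_mem S₁ u
    intro u v
    rw [H16A3Orb.orb_eq_of_mem (key u)]
    constructor
    · intro hv
      have := key v
      rwa [H16A3Orb.orb_eq_of_mem hv] at this
    · intro hv
      have h3 := H16A3Orb.orb_eq_of_mem (key v)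
      have h4 := H16A3Orb.orb_eq_of_mem hv
      rw [← h4, h3]
      exact H16A3Orb.self_mem S₁ v

end Cfsg.Agent.Lib.H16A3Part
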