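import Cfsg.Agent.Lib.H16A3Defs
import Cfsg.Agent.Lib.H16A3MaxSub
import Cfsg.Agent.Lib.H16A3Part
import Cfsg.Agent.Lib.H16A3Key
import Cfsg.Agent.Lib.H16A3Cover

set_option autoImplicit false

namespace Cfsg.Agent.Lib.H16A3CaseT

open Cfsg Subgroup Equiv Equiv.Perm Cfsg.Agent.Lib.H16A3Defs

/-- PIECE CaseT.  `S₁` from `H16A3MaxSub.exists_sub`; `E := orb S₁ x` has `n / 3 ≥ 9` points, `≠ univ` (card); `H16A3Part.full_orb`: `Full M E`; `H16A3Cover.cover`; `H16A3Key.key`. -/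
theorem caseT {n : ℕ} {S M : Subgroup (Perm (Fin n))} (hU : UM S M) (x : Fin n)
    (htr : orb S x = Finset.univ) (hn : 27 ≤ n) (h3 : 3 ∣ n) : False := by
  obtain ⟨S₁, hS₁, hnorm, hcard⟩ := H16A3MaxSub.exists_sub hU.pS x htr (by omega)
  have hnu : orb S₁ x ≠ Finset.univ := by
    intro h
    rw [h, Finset.card_univ, Fintype.card_fin] at hcard
    omega
  have hfull := H16A3Part.full_orb hU (by omega) S₁ hnorm x (by omega) hnu
  exact H16A3Key.key hU (by omega) (H16A3Cover.cover hU.syl h3) _ hfull (by omega)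

end Cfsg.Agent.Lib.H16A3CaseT
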