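import Cfsg.Agent.Lib.H16A3Defs

set_option autoImplicit false

namespace Cfsg.Agent.Lib.H16A3Cov

open Cfsg Subgroup Equiv Equiv.Perm Cfsg.Agent.Lib.H16A3Defs

/-- PIECE Cov (Mathlib only).  In a finite group a proper subgroup lies in a coatom (`eq_top_or_exists_le_coatom`; `IsCoatomic (Subgroup X)` from finiteness:
`Finite.to_isCoatomic` / `inferInstance`), which contains `S`, hence is `M₀`. -/
theorem le_of_unique {X : Type*} [Group X] [Finite X] (S M₀ : Subgroup X)
    (huniq : ∀ M : Subgroup X, IsCoatom M → S ≤ M → M = M₀) (Y : Subgroup X) (hSY : S ≤ Y) (hY : Y ≠ ⊤) :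
    Y ≤ M₀ := by
  obtain h | ⟨M, hM, hYM⟩ := eq_top_or_exists_le_coatom Y
  · exact absurd h hY
  · rw [← huniq M hM (hSY.trans hYM)]
    exact hYM

end Cfsg.Agent.Lib.H16A3Cov
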