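import Mathlib

set_option autoImplicit false

/-! Vocabulary for project 2930 (3-minimal groups with F* alternating). -/

namespace Cfsg.Agent.Lib.H16A3Defs

open Equiv Equiv.Perm

/-- `h` stabilizes the set `S`. -/
def Stb {n : ℕ} (h : Perm (Fin n)) (S : Finset (Fin n)) : Prop := ∀ x, x ∈ S ↔ h x ∈ S

/-- all 3-cycles on `E` lie in `M`. -/
def Full {n : ℕ} (M : Subgroup (Perm (Fin n))) (E : Finset (Fin n)) : Prop :=
  ∀ x y z, x ∈ E → y ∈ E → z ∈ E → x ≠ y → x ≠ z → y ≠ z → swap x y * swap y z ∈ M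

/-- some 3-cycle of `M` moves both `x` and `y`. -/
def Link {n : ℕ} (M : Subgroup (Perm (Fin n))) (x y : Fin n) : Prop :=
  ∃ c ∈ M, c.IsThreeCycle ∧ c x ≠ x ∧ c y ≠ y

/-- `S` is a Sylow 3-subgroup of `Sym(n)` and the even elements of every overgroup `Y` of `S` not containing `Alt(n)` lie in `M`,
which does not contain `Alt(n)` either. -/
structure UM {n : ℕ} (S M : Subgroup (Perm (Fin n))) : Prop where
  pS : IsPGroup 3 S
  syl : ∃ P : Sylow 3 (Perm (Fin n)), (P : Subgroup (Perm (Fin n))) ≤ S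
  le : S ≤ M
  notall : ¬ alternatingGroup (Fin n) ≤ M
  univ : ∀ Y : Subgroup (Perm (Fin n)), S ≤ Y → ¬ alternatingGroup (Fin n) ≤ Y →
    ∀ y ∈ Y, sign y = 1 → y ∈ M

open Classical in
/-- the orbit of `x` under `S`, as a Finset. -/
noncomputable def orb {n : ℕ} (S : Subgroup (Perm (Fin n))) (x : Fin n) : Finset (Fin n) :=
  Finset.univ.filter (fun y => ∃ s ∈ S, s x = y)

theorem mem_orb {n : ℕ} {S : Subgroup (Perm (Fin n))} {x y : Fin n} :
    y ∈ orb S x ↔ ∃ s ∈ S, s x = y := by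
  simp [orb]

/-- the subgroup generated by the 3-cycles of `S`. -/
def T3 {n : ℕ} (S : Subgroup (Perm (Fin n))) : Subgroup (Perm (Fin n)) :=
  Subgroup.closure {c | c ∈ S ∧ c.IsThreeCycle}

end Cfsg.Agent.Lib.H16A3Defs
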