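import Cfsg.Agent.Lib.H16A3Defs
import Cfsg.Agent.Lib.Helper29AltPQ

set_option autoImplicit false

namespace Cfsg.Agent.Lib.H16A3OddAut

open Cfsg Subgroup Equiv Equiv.Perm Cfsg.Agent.Lib.H16A3Defs

/-- PIECE OddAut.  An automorphism of odd order of `Alt(n)` is induced by a permutation.  COPY of the `have hsurj` at the beginning of the proof of the landed
`Cfsg.Agent.Lib.Helper29AltPQ.aut_pgroup_comm` (for `n ≠ 6`: `Cfsg.Agent.S2119.result n _ h6 |>.2`; for `n = 6`: `Helper29AltPQ.preserve_of_odd` + the lemma of `S2119` used there). -/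
theorem odd_aut (n : ℕ) (hn : 5 ≤ n) (φ : MulAut (alternatingGroup (Fin n))) (m : ℕ) (hm : Odd m)
    (hφ : φ ^ m = 1) : ∃ σ : Perm (Fin n),
      (MulAut.conjNormal σ : MulAut (alternatingGroup (Fin n))) = φ := by
  by_cases h6 : n = 6
  · subst h6
    exact Cfsg.Agent.Lib.Helper29P29aut6a.aut6_of_preserve φ
      (Cfsg.Agent.Lib.Helper29AltPQ.preserve_of_odd φ m hm hφ)
  · exact Cfsg.Agent.S2119.surj n (by omega) h6 φ

end Cfsg.Agent.Lib.H16A3OddAut
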