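import Cfsg.Agent.Lib.H16A3Defs
import Cfsg.Agent.Lib.H16A3OddAut
import Cfsg.Agent.Lib.Helper29AltPQ

set_option autoImplicit false

namespace Cfsg.Agent.Lib.H16A3Inn

open Cfsg Subgroup Equiv Equiv.Perm Cfsg.Agent.Lib.H16A3Defs

/-- PIECE Inn.  A 3-element `x` of `X` lies in `F`.  `φ := MulAut.conjNormal x : MulAut F`, `φ ^ 3 ^ k = 1` (`map_pow`).  `ψ : MulAut (Alt n)`, `ψ a := e (φ (e.symm a))` (i.e. `e.symm.trans (φ.trans e)`),
`ψ ^ 3 ^ k = 1`.  `H16A3OddAut.odd_aut`: `ψ = conjNormal σ`.  `conjNormal (σ ^ 3 ^ k) = 1`, so `σ ^ 3 ^ k = 1` (`Helper29AltPQ.conjNormal_injective n (by omega)`), so `sign σ = 1`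
(`sign σ ^ 3 ^ k = 1` with `sign σ = ± 1`: `Int.units_eq_one_or`, odd power).  `f := e.symm ⟨σ, _⟩ ∈ F`.  For all `a : F`: `x a x⁻¹ = f a f⁻¹` (apply `e`), so `f⁻¹ x` centralizes `F`, so `f⁻¹ x ∈ F` (`hC`), `x ∈ F`. -/
theorem mem_of_three {X : Type*} [Group X] [Finite X] (F : Subgroup X) [F.Normal]
    (hC : centralizer (F : Set X) ≤ F) (n : ℕ) (hn : 5 ≤ n) (e : F ≃* alternatingGroup (Fin n)) (x : X) (k : ℕ)
    (hx : x ^ 3 ^ k = 1) : x ∈ F := by
  have hodd : Odd (3 ^ k) := Odd.pow (by decide)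
  set φ : MulAut F := MulAut.conjNormal x with hφ
  have hφk : φ ^ 3 ^ k = 1 := by rw [hφ, ← map_pow, hx, map_one]
  set ψ : MulAut (alternatingGroup (Fin n)) := MulAut.congr e φ with hψ
  have hψk : ψ ^ 3 ^ k = 1 := by rw [hψ, ← map_pow, hφk, map_one]
  obtain ⟨σ, hσ⟩ := H16A3OddAut.odd_aut n hn ψ (3 ^ k) hodd hψk
  have hσk : σ ^ 3 ^ k = 1 := by
    apply Cfsg.Agent.Lib.Helper29AltPQ.conjNormal_injective n (by omega)
    rw [map_pow, hσ, hψk, map_one]
  have hsign : sign σ = 1 := by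
    have h1 : sign σ ^ 3 ^ k = 1 := by rw [← map_pow, hσk, map_one]
    rcases Int.units_eq_one_or (sign σ) with h | h
    · exact h
    · rw [h, Odd.neg_one_pow hodd] at h1
      exact absurd h1 (by decide)
  obtain ⟨f, hf⟩ : ∃ f : F, e f = ⟨σ, mem_alternatingGroup.2 hsign⟩ := e.surjective _
  have hconj : ∀ a : F, (x * (a : X) * x⁻¹ : X) = (f : X) * a * (f : X)⁻¹ := by
    intro a
    have h1 : e (φ a) = ψ (e a) := by
      rw [hψ]
      show e (φ a) = e (φ (e.symm (e a)))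
      rw [e.symm_apply_apply]
    have h2 : ψ (e a) = e (f * a * f⁻¹) := by
      rw [← hσ, map_mul, map_mul, map_inv, hf]
      apply Subtype.ext
      rw [MulAut.conjNormal_apply]
      rfl
    have h3 : φ a = f * a * f⁻¹ := e.injective (h1.trans h2)
    have h4 := congrArg Subtype.val h3
    rw [hφ, MulAut.conjNormal_apply] at h4
    simpa using h4
  have hcent : (f : X)⁻¹ * x ∈ centralizer (F : Set X) := by
    rw [mem_centralizer_iff]
    intro a ha
    have h5 := hconj ⟨a, ha⟩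
    simp only at h5
    calc a * ((f : X)⁻¹ * x) = (f : X)⁻¹ * ((f : X) * a * (f : X)⁻¹) * x := by group
      _ = (f : X)⁻¹ * (x * a * x⁻¹) * x := by rw [h5]
      _ = (f : X)⁻¹ * x * a := by group
  have h6 := F.mul_mem f.2 (hC hcent)
  simpa using h6

end Cfsg.Agent.Lib.H16A3Inn
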