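import Cfsg.Agent.Lib.H16A3Defs

set_option autoImplicit false

namespace Cfsg.Agent.Lib.H16A3NT

open Cfsg Subgroup Equiv Equiv.Perm Cfsg.Agent.Lib.H16A3Defs

/-- PIECE NT (Mathlib only).  If `normalizer P̂ = ⊤` then `P̂` is normal in `X`, so `P` is normal in `F`; `F ≃* Alt(n)` is simple (`alternatingGroup.isSimpleGroup`, `MulEquiv.isSimpleGroup`), so `P = ⊥` or `⊤`.
`P = ⊥`: `3 ∤ |F|` (`Sylow.card_eq_multiplicity`/`Sylow.ne_bot_of_dvd_card`), but `Alt(n)` contains an element of order 3 (a 3-cycle; `orderOf_dvd_natCard`).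
`P = ⊤`: `F` is a 3-group, but `Alt(n)` contains `swap 0 1 * swap 2 3` of order 2. -/
theorem normalizer_ne_top {X : Type*} [Group X] [Finite X] (F : Subgroup X) [F.Normal] (n : ℕ) (hn : 5 ≤ n)
    (e : F ≃* alternatingGroup (Fin n)) (P : Sylow 3 F) :
    normalizer (((P : Subgroup F).map F.subtype : Subgroup X) : Set X) ≠ ⊤ := by
  classical
  intro htop
  have hN : ((P : Subgroup F).map F.subtype).Normal := Subgroup.normalizer_eq_top_iff.1 htop
  have hPn : (P : Subgroup F).Normal := by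
    constructor
    intro a ha g
    have h1 : (g : X) * (a : X) * (g : X)⁻¹ ∈ (P : Subgroup F).map F.subtype :=
      hN.conj_mem _ ⟨a, ha, rfl⟩ _
    obtain ⟨b, hb, hba⟩ := h1
    have : b = g * a * g⁻¹ := Subtype.ext (by simpa using hba)
    rw [← this]; exact hb
  have hsA : IsSimpleGroup (alternatingGroup (Fin n)) :=
    alternatingGroup.isSimpleGroup (by simpa using hn)
  have hsF : IsSimpleGroup F := e.isSimpleGroup
  obtain ⟨i0, i1, i2, i3, h01, h02, h03, h12, h13, h23⟩ :
      ∃ i0 i1 i2 i3 : Fin n, i0 ≠ i1 ∧ i0 ≠ i2 ∧ i0 ≠ i3 ∧ i1 ≠ i2 ∧ i1 ≠ i3 ∧ i2 ≠ i3 := by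
    refine ⟨⟨0, by omega⟩, ⟨1, by omega⟩, ⟨2, by omega⟩, ⟨3, by omega⟩, ?_, ?_, ?_, ?_, ?_, ?_⟩ <;>
      simp [Fin.ext_iff]
  rcases hPn.eq_bot_or_eq_top with hb | ht
  · -- a 3-cycle
    have hc : (swap i0 i1 * swap i0 i2).IsThreeCycle := Equiv.Perm.isThreeCycle_swap_mul_swap_same h01 h02 h12
    let c : alternatingGroup (Fin n) := ⟨swap i0 i1 * swap i0 i2, hc.mem_alternatingGroup⟩
    have hoc : orderOf c = 3 := by
      rw [← Subgroup.orderOf_coe]
      exact hc.orderOf
    have ho : orderOf (e.symm c) = 3 := by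
      rw [MulEquiv.orderOf_eq]; exact hoc
    have hdvd : 3 ∣ Nat.card F := by
      rw [← ho]; exact orderOf_dvd_natCard _
    exact P.ne_bot_of_dvd_card hdvd hb
  · have hd : sign (swap i0 i1 * swap i2 i3) = 1 := by
      rw [map_mul, sign_swap h01, sign_swap h23]; rfl
    let c : alternatingGroup (Fin n) := ⟨swap i0 i1 * swap i2 i3, Equiv.Perm.mem_alternatingGroup.2 hd⟩
    have hc1 : c ≠ 1 := by
      intro h1
      have h2 : (swap i0 i1 * swap i2 i3) i0 = i0 := by
        have := congrArg (fun z : alternatingGroup (Fin n) => (z : Perm (Fin n)) i0) h1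
        simpa [c] using this
      rw [Equiv.Perm.mul_apply, swap_apply_of_ne_of_ne h02 h03, swap_apply_left] at h2
      exact h01 h2.symm
    have hdisj : Equiv.Perm.Disjoint (swap i0 i1) (swap i2 i3) := by
      intro z
      by_cases hz0 : z = i0
      · right; rw [hz0]; exact swap_apply_of_ne_of_ne h02 h03
      · by_cases hz1 : z = i1
        · right; rw [hz1]; exact swap_apply_of_ne_of_ne h12 h13
        · left; exact swap_apply_of_ne_of_ne hz0 hz1
    have hc2 : c * c = 1 := by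
      apply Subtype.ext
      show (swap i0 i1 * swap i2 i3) * (swap i0 i1 * swap i2 i3) = 1
      have hcomm := hdisj.commute.eq
      calc (swap i0 i1 * swap i2 i3) * (swap i0 i1 * swap i2 i3)
          = swap i0 i1 * (swap i2 i3 * swap i0 i1) * swap i2 i3 := by group
        _ = swap i0 i1 * (swap i0 i1 * swap i2 i3) * swap i2 i3 := by rw [hcomm]
        _ = (swap i0 i1 * swap i0 i1) * (swap i2 i3 * swap i2 i3) := by group
        _ = 1 := by rw [swap_mul_self, swap_mul_self, one_mul]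
    have hoc : orderOf c = 2 := orderOf_eq_prime (by rw [pow_two]; exact hc2) hc1
    have ho : orderOf (e.symm c) = 2 := by
      rw [MulEquiv.orderOf_eq]; exact hoc
    have hp : IsPGroup 3 F := by
      have := P.2
      rw [ht] at this
      intro g
      obtain ⟨k, hk⟩ := this ⟨g, Subgroup.mem_top g⟩
      exact ⟨k, by simpa using congrArg Subtype.val hk⟩
    obtain ⟨k, hk⟩ := hp (e.symm c)
    have h2 : 2 ∣ 3 ^ k := by
      rw [← ho]; exact orderOf_dvd_of_pow_eq_one hk
    have h3 : 2 ∣ 3 := Nat.Prime.dvd_of_dvd_pow Nat.prime_two h2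
    omega

end Cfsg.Agent.Lib.H16A3NT
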