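import Cfsg.Agent.Lib.H16A3Defs

set_option autoImplicit false

namespace Cfsg.Agent.Lib.H16A3SylF

open Cfsg Subgroup Equiv Equiv.Perm Cfsg.Agent.Lib.H16A3Defs

/-- PIECE SylF (Mathlib only).  Take any `P : Sylow 3 F` (`default`/`Sylow.nonempty`), `P̂ := P.map F.subtype` is a 3-group (`IsPGroup.map`), `P̂ ≤ S` for a Sylow `S` of `X` (`IsPGroup.exists_le_sylow`).
`S ⊓ F = P̂`: `(S ⊓ F).subgroupOf F` is a 3-subgroup of `F` containing `P` (`Sylow.is_maximal'`/`P.3`).  For `s ∈ S`, conjugation by `s` maps `S ⊓ F` to itself (`F` normal), so `s ∈ normalizer P̂`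
(`Subgroup.mem_normalizer_iff`). -/
theorem exists_pair {X : Type*} [Group X] [Finite X] (F : Subgroup X) [F.Normal] :
    ∃ (P : Sylow 3 F) (S : Sylow 3 X),
      (S : Subgroup X) ≤ normalizer (((P : Subgroup F).map F.subtype : Subgroup X) : Set X) := by
  have : Fact (Nat.Prime 3) := ⟨Nat.prime_three⟩
  obtain ⟨P⟩ : Nonempty (Sylow 3 F) := inferInstance
  have hPh : IsPGroup 3 ((P : Subgroup F).map F.subtype) := P.2.map _
  obtain ⟨S, hS⟩ := hPh.exists_le_sylow
  refine ⟨P, S, ?_⟩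
  have hFn : F.Normal := inferInstance
  have hEq : (S : Subgroup X) ⊓ F = (P : Subgroup F).map F.subtype := by
    have h1 : ((S : Subgroup X) ⊓ F).subgroupOf F = (P : Subgroup F) := by
      apply P.3
      · exact (S.2.to_le inf_le_left).comap_subtype
      · intro x hx
        rw [Subgroup.mem_subgroupOf]
        exact ⟨hS ⟨x, hx, rfl⟩, x.2⟩
    rw [← h1, Subgroup.map_subgroupOf_eq_of_le inf_le_right]
  rw [← hEq]
  intro s hs
  rw [Subgroup.mem_normalizer_iff]
  intro x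
  constructor
  · intro h12
    obtain ⟨h1, h2⟩ := Subgroup.mem_inf.1 h12
    exact Subgroup.mem_inf.2 ⟨mul_mem (mul_mem hs h1) (inv_mem hs), hFn.conj_mem x h2 s⟩
  · intro h12
    obtain ⟨h1, h2⟩ := Subgroup.mem_inf.1 h12
    refine Subgroup.mem_inf.2 ⟨?_, ?_⟩
    · have e : x = s⁻¹ * (s * x * s⁻¹) * s := by group
      rw [e]
      exact mul_mem (mul_mem (inv_mem hs) h1) hs
    · have h3 := hFn.conj_mem _ h2 s⁻¹
      have e : s⁻¹ * (s * x * s⁻¹) * s⁻¹⁻¹ = x := by group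
      rwa [e] at h3

end Cfsg.Agent.Lib.H16A3SylF
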