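import Cfsg.Agent.Lib.H16A3Defs
import Cfsg.Prelude.Def_LocalEven
import Cfsg.Agent.Lib.H16A3Cov
import Cfsg.Agent.Lib.H16A3SylF
import Cfsg.Agent.Lib.H16A3NT
import Cfsg.Agent.Lib.H16A3Inn

set_option autoImplicit false

namespace Cfsg.Agent.Lib.H16A3PartA

open Cfsg Subgroup Equiv Equiv.Perm Cfsg.Agent.Lib.H16A3Defs Cfsg.Agent.Lib

/-- ASSEMBLY (part A): a normal self-centralizing `F ≃* Alt(n)` in a 3-minimal group is everything. -/
theorem partA {X : Type*} [Group X] [Finite X] (hX : Cfsg.IsPMinimal 3 X) (F : Subgroup X) [F.Normal]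
    (hC : centralizer (F : Set X) ≤ F) (n : ℕ) (hn : 5 ≤ n) (e : F ≃* alternatingGroup (Fin n)) : F = ⊤ := by
  have : Fact (Nat.Prime 3) := ⟨by norm_num⟩
  obtain ⟨P, S, hSN⟩ := H16A3SylF.exists_pair F
  obtain ⟨_, M₀, ⟨hM₀, hSM₀⟩, huniq⟩ := hX S
  have huniq' : ∀ M : Subgroup X, IsCoatom M → (S : Subgroup X) ≤ M → M = M₀ :=
    fun M h1 h2 => huniq M ⟨h1, h2⟩
  have hSF : (S : Subgroup X) ≤ F := by
    intro x hx
    obtain ⟨k, hk⟩ := S.2 ⟨x, hx⟩
    have hk' : x ^ 3 ^ k = 1 := by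
      have := congrArg Subtype.val hk
      simpa using this
    exact H16A3Inn.mem_of_three F hC n hn e x k hk'
  by_contra hF
  have h1 : F ≤ M₀ := H16A3Cov.le_of_unique _ M₀ huniq' F hSF hF
  have h2 : normalizer (((P : Subgroup F).map F.subtype : Subgroup X) : Set X) ≤ M₀ :=
    H16A3Cov.le_of_unique _ M₀ huniq' _ hSN (H16A3NT.normalizer_ne_top F n hn e P)
  have h3 := Sylow.normalizer_sup_eq_top P
  have h4 : (⊤ : Subgroup X) ≤ M₀ := by
    rw [← h3]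
    exact sup_le h2 h1
  exact hM₀.1 (top_le_iff.1 h4)

end Cfsg.Agent.Lib.H16A3PartA
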