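import Cfsg.Agent.Lib.H16A3Defs
import Cfsg.Agent.Lib.H16A3Orb

set_option autoImplicit false

namespace Cfsg.Agent.Lib.H16A3Split

open Cfsg Subgroup Equiv Equiv.Perm Cfsg.Agent.Lib.H16A3Defs

theorem card_split {n : ℕ} {S : Subgroup (Perm (Fin n))} (x y : Fin n) (hne : orb S x ≠ orb S y)
    (hall : ∀ z, orb S z = orb S x ∨ orb S z = orb S y) : n = (orb S x).card + (orb S y).card := by
  classical
  have hdisj : Disjoint (orb S x) (orb S y) := by
    rw [Finset.disjoint_left]
    intro z hz hz'
    exact hne ((H16A3Orb.orb_eq_of_mem hz).symm.trans (H16A3Orb.orb_eq_of_mem hz'))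
  have huniv : (Finset.univ : Finset (Fin n)) = orb S x ∪ orb S y := by
    ext z
    simp only [Finset.mem_univ, Finset.mem_union, true_iff]
    rcases hall z with h | h
    · left; rw [← h]; exact H16A3Orb.self_mem S z
    · right; rw [← h]; exact H16A3Orb.self_mem S z
  have := congrArg Finset.card huniv
  rw [Finset.card_union_of_disjoint hdisj, Finset.card_univ, Fintype.card_fin] at this
  exact this

end Cfsg.Agent.Lib.H16A3Split
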