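import Cfsg.Agent.Lib.H16A3Defs
import Cfsg.Agent.Lib.H16A3St
import Cfsg.Agent.Lib.H16A3Gen
import Cfsg.Agent.Lib.H16A3FullLink
import Cfsg.Agent.Lib.H16A3Orb
import Cfsg.Agent.Lib.H16A3Cover

set_option autoImplicit false

namespace Cfsg.Agent.Lib.H16A3TwoOrb

open Cfsg Subgroup Equiv Equiv.Perm Cfsg.Agent.Lib.H16A3Defs

/-- PIECE TwoOrb.  `S` has at most two orbits. -/
theorem two_orbits {n : ℕ} {S M : Subgroup (Perm (Fin n))} (hU : UM S M) (hn : 5 ≤ n) (x y z : Fin n) :
    orb S x = orb S y ∨ orb S x = orb S z ∨ orb S y = orb S z := by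
  by_contra hcon
  push_neg at hcon
  obtain ⟨hxy, hxz, hyz⟩ := hcon
  obtain ⟨c, hcS, hc3⟩ := H16A3Cover.exists_one hU.syl (by omega : 3 ≤ n)
  obtain ⟨u, hu⟩ : ∃ u, u ∈ c.support := by
    apply Finset.card_pos.1
    rw [hc3.card_support]
    norm_num
  have hcu : c u ≠ u := Equiv.Perm.mem_support.1 hu
  have hc3' : c (c (c u)) = u := by
    have h1 : c ^ 3 = 1 := by
      rw [← hc3.orderOf]
      exact pow_orderOf_eq_one c
    have h2 := congrArg (fun f : Perm (Fin n) => f u) h1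
    simpa [pow_succ, Equiv.Perm.mul_apply] using h2
  have hccu : c (c u) ≠ u := by
    intro h
    rw [h] at hc3'
    exact hcu hc3'
  have hccu' : c (c u) ≠ c u := fun h => hcu (c.injective h)
  have h3u : 3 ≤ (orb S u).card := by
    have hsub : ({u, c u, c (c u)} : Finset (Fin n)) ⊆ orb S u := by
      intro w hw
      simp only [Finset.mem_insert, Finset.mem_singleton] at hw
      rw [mem_orb]
      rcases hw with rfl | rfl | rfl
      · exact ⟨1, S.one_mem, rfl⟩
      · exact ⟨c, hcS, rfl⟩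
      · exact ⟨c * c, S.mul_mem hcS hcS, rfl⟩
    have hcard : ({u, c u, c (c u)} : Finset (Fin n)).card = 3 := by
      rw [Finset.card_eq_three]
      exact ⟨u, c u, c (c u), hcu.symm, hccu.symm, hccu'.symm, rfl⟩
    calc 3 = ({u, c u, c (c u)} : Finset (Fin n)).card := hcard.symm
      _ ≤ _ := Finset.card_le_card hsub
  obtain ⟨p, q, hpq, hpu, hqu⟩ : ∃ p q, orb S p ≠ orb S q ∧ orb S p ≠ orb S u ∧ orb S q ≠ orb S u := by
    by_cases hxu : orb S x = orb S u
    · exact ⟨y, z, hyz, fun h => hxy (hxu.trans h.symm), fun h => hxz (hxu.trans h.symm)⟩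
    · by_cases hyu : orb S y = orb S u
      · exact ⟨x, z, hxz, hxu, fun h => hyz (hyu.trans h.symm)⟩
      · exact ⟨x, y, hxy, hxu, hyu⟩
  have hdisj : ∀ a b w, orb S a ≠ orb S b → w ∈ orb S a → w ∉ orb S b := by
    intro a b w hab ha hb
    exact hab ((H16A3Orb.orb_eq_of_mem ha).symm.trans (H16A3Orb.orb_eq_of_mem hb))
  have huu : u ∈ orb S u := H16A3Orb.self_mem S u
  have hup : u ∉ orb S p := hdisj u p u hpu.symm huu
  -- Γ₁
  have F1 : Full M (orb S p)ᶜ := (H16A3St.full_of_inv hU (by omega) (orb S p) (H16A3Orb.stb_orb p)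
    ⟨p, H16A3Orb.self_mem S p⟩ (fun h => hup (h ▸ Finset.mem_univ u))).2
  have h31 : 3 ≤ ((orb S p)ᶜ).card := by
    refine h3u.trans (Finset.card_le_card ?_)
    intro w hw
    rw [Finset.mem_compl]
    exact hdisj u p w hpu.symm hw
  -- Γ₂
  have hq2 : q ∉ orb S p ∪ orb S u := by
    rw [Finset.mem_union]
    rintro (h | h)
    · exact hdisj q p q hpq.symm (H16A3Orb.self_mem S q) h
    · exact hdisj q u q hqu (H16A3Orb.self_mem S q) h
  have F2 : Full M (orb S p ∪ orb S u) := (H16A3St.full_of_inv hU (by omega) (orb S p ∪ orb S u)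
    (by
      intro s hs w
      rw [Finset.mem_union, Finset.mem_union, H16A3Orb.stb_orb p s hs w, H16A3Orb.stb_orb u s hs w])
    ⟨p, Finset.mem_union_left _ (H16A3Orb.self_mem S p)⟩
    (fun h => hq2 (h ▸ Finset.mem_univ q))).1
  have h32 : 3 ≤ (orb S p ∪ orb S u).card :=
    h3u.trans (Finset.card_le_card Finset.subset_union_right)
  apply hU.notall
  apply H16A3Gen.alt_le M u
  intro w
  by_cases hwu : w = u
  · rw [hwu]
  · apply Relation.ReflTransGen.single
    by_cases hwp : w ∈ orb S p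
    · exact H16A3FullLink.link_of_full F2 h32 (Finset.mem_union_right _ huu)
        (Finset.mem_union_left _ hwp) (Ne.symm hwu)
    · exact H16A3FullLink.link_of_full F1 h31 (Finset.mem_compl.2 hup) (Finset.mem_compl.2 hwp)
        (Ne.symm hwu)

end Cfsg.Agent.Lib.H16A3TwoOrb
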