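import Cfsg.Agent.Lib.H16A3Defs
import Cfsg.Agent.Lib.H16A3Orb
import Cfsg.Agent.Lib.H16A3Split
import Cfsg.Agent.Lib.H16A3TwoOrb
import Cfsg.Agent.Lib.H16A3CaseD
import Cfsg.Agent.Lib.H16A3CaseT

set_option autoImplicit false

namespace Cfsg.Agent.Lib.H16A3PartB

open Cfsg Subgroup Equiv Equiv.Perm Cfsg.Agent.Lib.H16A3Defs Cfsg.Agent.Lib

/-- ASSEMBLY (part B). -/
theorem partB {n : ℕ} {S M : Subgroup (Perm (Fin n))} (hU : UM S M) (hn : 5 ≤ n) :
    n = 6 ∨ n = 9 ∨ ∃ a : ℕ, 2 ≤ a ∧ n = 3 ^ a + 1 := by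
  set x₀ : Fin n := ⟨0, by omega⟩ with hx₀
  have hsmall : ∀ e : ℕ, e ≤ 1 → 3 ^ e ≤ 3 := by
    intro e he
    calc 3 ^ e ≤ 3 ^ 1 := Nat.pow_le_pow_right (by norm_num) he
      _ = 3 := by norm_num
  by_cases htr : orb S x₀ = Finset.univ
  · obtain ⟨e, he⟩ := H16A3Orb.card_orb_pow hU.pS x₀
    rw [htr, Finset.card_univ, Fintype.card_fin] at he
    have h3c : e = 2 ∨ 3 ≤ e ∨ e ≤ 1 := by omega
    rcases h3c with rfl | h | h
    · right; left; rw [he]; norm_num
    · exfalso
      have h27 : 27 ≤ n := by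
        rw [he]
        calc 27 = 3 ^ 3 := by norm_num
          _ ≤ 3 ^ e := Nat.pow_le_pow_right (by norm_num) h
      have h3 : 3 ∣ n := by rw [he]; exact dvd_pow_self 3 (by omega)
      exact H16A3CaseT.caseT hU x₀ htr h27 h3
    · exfalso
      have := hsmall e h
      omega
  · obtain ⟨y, hy⟩ : ∃ y, y ∉ orb S x₀ := by
      by_contra hcon
      push Not at hcon
      exact htr (Finset.eq_univ_iff_forall.2 hcon)
    have hne : orb S x₀ ≠ orb S y := by
      intro h
      apply hy
      rw [h]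
      exact H16A3Orb.self_mem S y
    have hall : ∀ z, orb S z = orb S x₀ ∨ orb S z = orb S y := by
      intro z
      rcases H16A3TwoOrb.two_orbits hU hn x₀ y z with h | h | h
      · exact absurd h hne
      · left; exact h.symm
      · right; exact h.symm
    have hsplit := H16A3Split.card_split x₀ y hne hall
    obtain ⟨a, ha⟩ := H16A3Orb.card_orb_pow hU.pS x₀
    obtain ⟨b, hb⟩ := H16A3Orb.card_orb_pow hU.pS y
    rw [ha, hb] at hsplit
    rcases Nat.eq_zero_or_pos b with rfl | hb1
    · right; right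
      rw [pow_zero] at hsplit
      refine ⟨a, ?_, hsplit⟩
      by_contra h
      have := hsmall a (by omega)
      omega
    rcases Nat.eq_zero_or_pos a with rfl | ha1
    · right; right
      rw [pow_zero] at hsplit
      refine ⟨b, ?_, by omega⟩
      by_contra h
      have := hsmall b (by omega)
      omega
    by_cases ha2 : 2 ≤ a
    · exact (H16A3CaseD.caseD hU hn x₀ y hne a b ha ha2 hb1 hsplit).elim
    by_cases hb2 : 2 ≤ b
    · exact (H16A3CaseD.caseD hU hn y x₀ hne.symm b a hb hb2 ha1 (by omega)).elim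
    · have ea : a = 1 := by omega
      have eb : b = 1 := by omega
      subst ea eb
      left
      norm_num at hsplit
      exact hsplit

end Cfsg.Agent.Lib.H16A3PartB
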