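import Cfsg.Agent.Lib.H16A3Defs

set_option autoImplicit false

namespace Cfsg.Agent.Lib.H16A3SylUp

open Cfsg Subgroup Equiv Equiv.Perm Cfsg.Agent.Lib.H16A3Defs

/-- PIECE SylUp.  A Sylow 3-subgroup of `Alt(n)` is a Sylow 3-subgroup of `Sym(n)`. -/
theorem sylow_up (n : ℕ) (S : Sylow 3 ↥(alternatingGroup (Fin n))) :
    ∃ P : Sylow 3 (Perm (Fin n)), (P : Subgroup (Perm (Fin n))) ≤
      (S : Subgroup ↥(alternatingGroup (Fin n))).map (alternatingGroup (Fin n)).subtype := by
  have : Fact (Nat.Prime 3) := ⟨by norm_num⟩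
  have h1 : IsPGroup 3 ((S : Subgroup ↥(alternatingGroup (Fin n))).map
      (alternatingGroup (Fin n)).subtype) := S.2.map _
  have hidx : (alternatingGroup (Fin n)).index ∣ 2 := by
    by_cases hnt : Nontrivial (Fin n)
    · rw [alternatingGroup.index_eq_two]
    · rw [not_nontrivial_iff_subsingleton] at hnt
      have : (alternatingGroup (Fin n)) = ⊤ := by
        rw [eq_top_iff]
        intro σ _
        have : σ = 1 := Subsingleton.elim _ _
        rw [this]
        exact one_mem _
      rw [this, index_top]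
      exact one_dvd _
  have h2 : ¬ 3 ∣ ((S : Subgroup ↥(alternatingGroup (Fin n))).map
      (alternatingGroup (Fin n)).subtype).index := by
    rw [Subgroup.index_map_subtype]
    intro hd
    rcases (Nat.Prime.dvd_mul (by norm_num)).1 hd with h | h
    · exact S.not_dvd_index h
    · have := Nat.le_of_dvd (by norm_num) (h.trans hidx)
      omega
  refine ⟨h1.toSylow h2, ?_⟩
  exact le_of_eq rfl

end Cfsg.Agent.Lib.H16A3SylUp
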