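import Cfsg.Agent.Lib.H16A3Defs
import Cfsg.Prelude.Def_LocalEven
import Cfsg.Agent.Lib.H16A3Cov
import Cfsg.Agent.Lib.H16A3SylUp

set_option autoImplicit false

namespace Cfsg.Agent.Lib.H16A3ToUM

open Cfsg Subgroup Equiv Equiv.Perm Cfsg.Agent.Lib.H16A3Defs

/-- PIECE ToUM.  Take any `S : Sylow 3 (Alt n)`; `h S` gives the unique coatom `M₀ ≥ S`.  `Ŝ := S.map subtype`, `M̂ := M₀.map subtype`.
`pS`: `IsPGroup.map`; `syl`: `H16A3SylUp.sylow_up`; `le`: `Subgroup.map_mono`; `notall`: `Alt ≤ M̂` would give `M₀ = ⊤` (coatom `≠ ⊤`).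
`univ`: `Y' := Y.subgroupOf (Alt n)` contains `S`, `≠ ⊤` (else `Alt ≤ Y`), so `Y' ≤ M₀` by `H16A3Cov.le_of_unique`; for `y ∈ Y` even, `⟨y, _⟩ ∈ Y' ≤ M₀`, so `y ∈ M̂`. -/
theorem exists_UM (n : ℕ) (h : Cfsg.IsPMinimal 3 ↥(alternatingGroup (Fin n))) :
    ∃ S M : Subgroup (Perm (Fin n)), UM S M := by
  classical
  obtain ⟨S⟩ : Nonempty (Sylow 3 ↥(alternatingGroup (Fin n))) := inferInstance
  obtain ⟨-, M₀, ⟨hco, hSM⟩, huniq⟩ := h S
  refine ⟨(S : Subgroup ↥(alternatingGroup (Fin n))).map (alternatingGroup (Fin n)).subtype,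
    M₀.map (alternatingGroup (Fin n)).subtype, ?_⟩
  refine ⟨S.2.map _, Cfsg.Agent.Lib.H16A3SylUp.sylow_up n S, Subgroup.map_mono hSM, ?_, ?_⟩
  · intro hle
    apply hco.1
    rw [eq_top_iff]
    intro a _
    obtain ⟨b, hb, hba⟩ := hle a.2
    have : b = a := Subtype.ext hba
    rw [← this]; exact hb
  · intro Y hSY hY y hy hsign
    have hyA : y ∈ alternatingGroup (Fin n) := Equiv.Perm.mem_alternatingGroup.2 hsign
    have h1 : (S : Subgroup ↥(alternatingGroup (Fin n))) ≤ Y.subgroupOf (alternatingGroup (Fin n)) := by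
      intro a ha
      rw [Subgroup.mem_subgroupOf]
      exact hSY ⟨a, ha, rfl⟩
    have h2 : Y.subgroupOf (alternatingGroup (Fin n)) ≠ ⊤ := by
      intro htop
      apply hY
      exact Subgroup.subgroupOf_eq_top.1 htop
    have h3 := Cfsg.Agent.Lib.H16A3Cov.le_of_unique (S : Subgroup ↥(alternatingGroup (Fin n))) M₀
      (fun M hM hSM' => huniq M ⟨hM, hSM'⟩) _ h1 h2
    refine ⟨⟨y, hyA⟩, h3 ?_, rfl⟩
    rw [Subgroup.mem_subgroupOf]
    exact hy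

end Cfsg.Agent.Lib.H16A3ToUM
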