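import Cfsg.Agent.Lib.H16A3Defs
import Cfsg.Prelude.Def_LocalEven

set_option autoImplicit false

namespace Cfsg.Agent.Lib.H16A3TrMin

open Cfsg Subgroup Equiv Equiv.Perm Cfsg.Agent.Lib.H16A3Defs

/-- PIECE TrMin.  `IsPMinimal` is invariant under isomorphism. -/
theorem pmin_equiv {X Y : Type*} [Group X] [Group Y] (e : X ≃* Y) (h : Cfsg.IsPMinimal 3 X) :
    Cfsg.IsPMinimal 3 Y := by
  intro S
  have hsurj : Function.Surjective e.toMonoidHom := e.surjective
  have hle : (S : Subgroup Y) ≤ e.toMonoidHom.range := by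
    rw [MonoidHom.range_eq_top.mpr hsurj]
    exact le_top
  have hinj : Function.Injective e.toMonoidHom := e.injective
  have hcoe : ((S.comapOfInjective e.toMonoidHom hinj hle : Sylow 3 X) : Subgroup X)
      = (S : Subgroup Y).comap e.toMonoidHom := Sylow.coe_comapOfInjective _ _ _ _
  obtain ⟨hnn, M, ⟨hM, hSM⟩, huniq⟩ := h (S.comapOfInjective e.toMonoidHom hinj hle)
  rw [hcoe] at hnn hSM
  have hco : ∀ N : Subgroup X, IsCoatom (N.map e.toMonoidHom) ↔ IsCoatom N := fun N =>
    (MulEquiv.mapSubgroup e).isCoatom_iff N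
  refine ⟨fun hN => hnn (hN.comap e.toMonoidHom), M.map e.toMonoidHom, ⟨(hco M).mpr hM, ?_⟩, ?_⟩
  · rw [← Subgroup.map_comap_eq_self_of_surjective hsurj (S : Subgroup Y)]
    exact Subgroup.map_mono hSM
  · rintro N ⟨hN, hSN⟩
    have e1 : (N.comap e.toMonoidHom).map e.toMonoidHom = N :=
      Subgroup.map_comap_eq_self_of_surjective hsurj N
    have h1 : IsCoatom (N.comap e.toMonoidHom) := by
      rw [← hco, e1]
      exact hN
    have h2 := huniq (N.comap e.toMonoidHom) ⟨h1, by
      rw [hcoe]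
      exact Subgroup.comap_mono hSN⟩
    rw [← e1, h2]

end Cfsg.Agent.Lib.H16A3TrMin
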