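import Cfsg.Agent.Lib.H16AltDefs

set_option autoImplicit false

namespace Cfsg.Agent.Lib.H16AltCard

open Cfsg Subgroup Equiv Equiv.Perm Cfsg.Agent.Lib.H16AltDefs

/-- PIECE Card (Mathlib only). -/
theorem card_le {n : ℕ} {Δ : Finset (Fin n)} (t : ℕ) (c : Fin t → Perm (Fin n))
    (h3 : ∀ i, (c i).IsThreeCycle) (hd : ∀ i j, i ≠ j → Perm.Disjoint (c i) (c j))
    (hA : ∀ i, c i ∈ A Δ) : 3 * t ≤ Δ.card := by
  have h1 : (Finset.univ.biUnion (fun i => (c i).support)).card = ∑ i : Fin t, (c i).support.card := by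
    apply Finset.card_biUnion
    intro i _ j _ hij
    exact (hd i j hij).disjoint_support
  have h2 : ∑ i : Fin t, (c i).support.card = 3 * t := by
    rw [Finset.sum_congr rfl (fun i _ => (h3 i).card_support)]
    simp [mul_comm]
  have h4 : Finset.univ.biUnion (fun i => (c i).support) ⊆ Δ := by
    intro x hx
    rw [Finset.mem_biUnion] at hx
    obtain ⟨i, -, hi⟩ := hx
    by_contra hxΔ
    exact (Perm.mem_support.1 hi) ((hA i).2 x hxΔ)
  rw [← h2, ← h1]
  exact Finset.card_le_card h4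

end Cfsg.Agent.Lib.H16AltCard
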