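import Cfsg.Agent.Lib.H16AltDefs

set_option autoImplicit false

namespace Cfsg.Agent.Lib.H16AltConj

open Cfsg Subgroup Equiv Equiv.Perm Cfsg.Agent.Lib.H16AltDefs

/-- PIECE Conj (Mathlib only, 15 lines). -/
theorem conj_mem {n : ℕ} {Δ : Finset (Fin n)} {σ a : Perm (Fin n)} (hσ : ∀ y, (y ∈ Δ ↔ σ y ∈ Δ))
    (ha : a ∈ A Δ) : σ * a * σ⁻¹ ∈ A Δ := by
  rw [mem_A] at ha ⊢
  refine ⟨?_, ?_⟩
  · rw [map_mul, map_mul, map_inv, ha.1, mul_one, mul_inv_cancel]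
  · intro y hy
    have h1 : σ⁻¹ y ∉ Δ := by
      intro h
      apply hy
      have := (hσ (σ⁻¹ y)).1 h
      simpa using this
    rw [Perm.mul_apply, Perm.mul_apply, ha.2 _ h1]
    simp

end Cfsg.Agent.Lib.H16AltConj
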