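import Cfsg.Agent.Lib.H16AltDefs

set_option autoImplicit false

namespace Cfsg.Agent.Lib.H16AltIso

open Cfsg Subgroup Equiv Equiv.Perm Cfsg.Agent.Lib.H16AltDefs

/-- PIECE Iso (Mathlib only).  `A Δ ≃* Alt(|Δ|)`. -/
theorem iso {n : ℕ} (Δ : Finset (Fin n)) : Nonempty (↥(A Δ) ≃* ↥(alternatingGroup (Fin Δ.card))) := by
  let ψ : alternatingGroup {x : Fin n // x ∈ Δ} →* Perm (Fin n) :=
    (Equiv.Perm.ofSubtype (p := (· ∈ Δ))).comp (alternatingGroup {x : Fin n // x ∈ Δ}).subtype
  have hψ : Function.Injective ψ := by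
    intro a b hab
    exact Subtype.ext (Equiv.Perm.ofSubtype_injective hab)
  have hrange : ψ.range = A Δ := by
    ext g
    constructor
    · rintro ⟨σ, rfl⟩
      rw [mem_A]
      refine ⟨?_, ?_⟩
      · simp only [ψ, MonoidHom.coe_comp, Function.comp_apply, Subgroup.coe_subtype]
        rw [Equiv.Perm.sign_ofSubtype]
        exact σ.2
      · intro x hx
        exact Equiv.Perm.ofSubtype_apply_of_not_mem _ hx
    · intro hg
      rw [mem_A] at hg
      have h1 : ∀ x, g x ∈ Δ ↔ x ∈ Δ := by
        intro x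
        rw [← not_iff_not]
        constructor
        · intro hx
          have h2 := hg.2 _ hx
          have h3 : g x = x := g.injective h2
          rwa [h3] at hx
        · intro hx
          rw [hg.2 x hx]; exact hx
      have h2 : ∀ x, g x ≠ x → x ∈ Δ := fun x hx => by
        by_contra hxΔ
        exact hx (hg.2 x hxΔ)
      refine ⟨⟨Equiv.Perm.subtypePerm g h1, ?_⟩, ?_⟩
      · rw [mem_alternatingGroup]
        have h3 := Equiv.Perm.sign_subtypePerm g h1 h2
        rw [hg.1] at h3
        convert h3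
      · exact Equiv.Perm.ofSubtype_subtypePerm h1 h2
  exact ⟨(((MonoidHom.ofInjective hψ).trans (MulEquiv.subgroupCongr hrange)).symm).trans
    (Equiv.altCongrHom (Δ.equivFin))⟩

end Cfsg.Agent.Lib.H16AltIso
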