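import Cfsg.Agent.Lib.H16AltDefs

set_option autoImplicit false

namespace Cfsg.Agent.Lib.H16AltP5

open Cfsg Subgroup Equiv Equiv.Perm Cfsg.Agent.Lib.H16AltDefs
open scoped commutatorElement

/-- two permutations stabilizing a set with at most two points commute on it -/
theorem comm_small {α : Type*} [DecidableEq α] (R : Finset α) (hR : R.card ≤ 2) (σ τ : Perm α)
    (hσ : ∀ x ∈ R, σ x ∈ R) (hτ : ∀ x ∈ R, τ x ∈ R) (x : α) (hx : x ∈ R) :
    σ (τ x) = τ (σ x) := by
  have key : ∀ a ∈ R, ∀ b ∈ R, ∀ c ∈ R, a = b ∨ a = c ∨ b = c := by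
    intro a ha b hb c hc
    by_contra hcon
    push Not at hcon
    have : 2 < R.card := Finset.two_lt_card_iff.2 ⟨a, b, c, ha, hb, hc, hcon.1, hcon.2.1, hcon.2.2⟩
    omega
  by_cases h1 : σ x = x
  · by_cases h2 : τ x = x
    · rw [h1, h2, h1]
    · rw [h1]
      rcases key x hx (τ x) (hτ x hx) (σ (τ x)) (hσ _ (hτ x hx)) with h | h | h
      · exact absurd h.symm h2
      · exfalso; apply h2
        apply σ.injective
        rw [h1]; exact h.symm
      · exact h.symm
  · by_cases h2 : τ x = x
    · rw [h2]
      rcases key x hx (σ x) (hσ x hx) (τ (σ x)) (hτ _ (hσ x hx)) with h | h | h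
      · exact absurd h.symm h1
      · exfalso; apply h1
        apply τ.injective
        rw [h2]; exact h.symm
      · exact h
    · have h3 : σ x = τ x := by
        rcases key x hx (σ x) (hσ x hx) (τ x) (hτ x hx) with h | h | h
        · exact absurd h.symm h1
        · exact absurd h.symm h2
        · exact h
      have h4 : σ (σ x) = x := by
        rcases key x hx (σ x) (hσ x hx) (σ (σ x)) (hσ _ (hσ x hx)) with h | h | h
        · exact absurd h.symm h1
        · exact h.symm
        · exact absurd (σ.injective h).symm h1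
      have h5 : τ (τ x) = x := by
        rcases key x hx (τ x) (hτ x hx) (τ (τ x)) (hτ _ (hτ x hx)) with h | h | h
        · exact absurd h.symm h2
        · exact h.symm
        · exact absurd (τ.injective h).symm h2
      rw [← h3, h4, h3, h5]

/-- PIECE P5.  A nontrivial perfect group `K` of permutations cannot centralize `t` disjoint 3-cycles covering all but
at most 2 points. -/
theorem not_all_central {n : ℕ} (K : Subgroup (Perm (Fin n))) (hperf : ⁅K, K⁆ = K) (hne : K ≠ ⊥)
    (t : ℕ) (c : Fin t → Perm (Fin n)) (h3 : ∀ i, (c i).IsThreeCycle)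
    (hd : ∀ i j, i ≠ j → Perm.Disjoint (c i) (c j)) (hn : n ≤ 3 * t + 2)
    (hcen : ∀ i, ∀ k ∈ K, c i * k = k * c i) : False := by
  classical
  set R : Finset (Fin n) := Finset.univ.filter (fun x => ∀ i, c i x = x) with hRdef
  have hRmem : ∀ x, x ∈ R ↔ ∀ i, c i x = x := by
    intro x; simp [hRdef]
  have hRcard : R.card ≤ 2 := by
    set U : Finset (Fin n) := Finset.univ.biUnion (fun i => (c i).support) with hU
    have hUcard : U.card = 3 * t := by
      rw [hU, Finset.card_biUnion]
      · simp [fun i => (h3 i).card_support, mul_comm]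
      · intro i _ j _ hij
        exact (hd i j hij).disjoint_support
    have hdis : Disjoint R U := by
      rw [Finset.disjoint_left]
      intro x hxR hxU
      rw [hU, Finset.mem_biUnion] at hxU
      obtain ⟨i, _, hi⟩ := hxU
      rw [Perm.mem_support] at hi
      exact hi ((hRmem x).1 hxR i)
    have h1 : (R ∪ U).card ≤ n := by
      have := Finset.card_le_univ (R ∪ U)
      simpa using this
    rw [Finset.card_union_of_disjoint hdis, hUcard] at h1
    omega
  have hRinv : ∀ σ ∈ K, ∀ x ∈ R, σ x ∈ R := by
    intro σ hσ x hx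
    rw [hRmem] at hx ⊢
    intro i
    have := congrArg (fun f : Perm (Fin n) => f x) (hcen i σ hσ)
    simp only [Perm.mul_apply] at this
    rw [this, hx i]
  have hcomm : ∀ σ ∈ K, ∀ τ ∈ K, σ * τ = τ * σ := by
    intro σ hσ τ hτ
    ext x
    simp only [Perm.mul_apply]
    congr 1
    by_cases hx : x ∈ R
    · exact comm_small R hRcard σ τ (hRinv σ hσ) (hRinv τ hτ) x hx
    · rw [hRmem] at hx
      push Not at hx
      obtain ⟨i, hi⟩ := hx
      have hcy := (h3 i).isCycle
      have hz : ∀ ρ ∈ K, ∀ (a : ℤ) (y : Fin n), ρ ((c i ^ a) y) = (c i ^ a) (ρ y) := by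
        intro ρ hρ a y
        have h1 : Commute (c i) ρ := hcen i ρ hρ
        have h2 : Commute (c i ^ a) ρ := h1.zpow_left a
        have := congrArg (fun f : Perm (Fin n) => f y) h2.eq
        simp only [Perm.mul_apply] at this
        exact this.symm
      have hmove : ∀ ρ ∈ K, ∃ a : ℤ, (c i ^ a) x = ρ x := by
        intro ρ hρ
        apply hcy.sameCycle hi
        have := hz ρ hρ 1 x
        rw [zpow_one] at this
        rw [← this]
        intro h
        exact hi (ρ.injective h)
      obtain ⟨a, ha⟩ := hmove σ hσ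
      obtain ⟨b, hb⟩ := hmove τ hτ
      rw [← hb, hz σ hσ, ← ha, hz τ hτ, ← hb, ← Perm.mul_apply, ← Perm.mul_apply, ← zpow_add,
        ← zpow_add, add_comm]
  apply hne
  rw [← hperf, commutator_eq_bot_iff_le_centralizer]
  intro σ hσ
  rw [mem_centralizer_iff]
  intro τ hτ
  exact hcomm τ hτ σ hσ

end Cfsg.Agent.Lib.H16AltP5
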