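import Cfsg.Agent.Lib.H16AltDefs

set_option autoImplicit false

namespace Cfsg.Agent.Lib.H16AltQ

open Cfsg Subgroup Equiv Equiv.Perm Cfsg.Agent.Lib.H16AltDefs
open scoped commutatorElement

/-- PIECE Q (Mathlib only).  A subgroup `X ≤ H` normalized by `K` contains `K` or is central in `K`. -/
theorem q_lemma {G : Type*} [Group G] {H K : Subgroup G} (hQS : QS H K) (X : Subgroup G)
    (hXH : X ≤ H) (hKX : ∀ k ∈ K, ∀ x ∈ X, k * x * k⁻¹ ∈ X) :
    K ≤ X ∨ (X ≤ K ∧ ∀ x ∈ X, ∀ k ∈ K, x * k = k * x) := by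
  have h1 : ∀ k ∈ K, ∀ x ∈ X ⊓ K, k * x * k⁻¹ ∈ X ⊓ K := by
    intro k hk x hx
    exact ⟨hKX k hk x hx.1, K.mul_mem (K.mul_mem hk hx.2) (K.inv_mem hk)⟩
  rcases hQS.simp (X ⊓ K) inf_le_right h1 with h | h
  · left
    rw [← h]; exact inf_le_left
  · right
    have hXK : ⁅X, K⁆ ≤ X ⊓ K := by
      rw [Subgroup.commutator_le]
      intro x hx k hk
      refine ⟨?_, ?_⟩
      · -- x * (k x⁻¹ k⁻¹)
        have : ⁅x, k⁆ = x * (k * x⁻¹ * k⁻¹) := by rw [commutatorElement_def]; group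
        rw [this]
        exact X.mul_mem hx (hKX k hk _ (X.inv_mem hx))
      · have : ⁅x, k⁆ = (x * k * x⁻¹) * k⁻¹ := by rw [commutatorElement_def]
        rw [this]
        exact K.mul_mem (hQS.norm x (hXH hx) k hk) (K.inv_mem hk)
    have h2 : ⁅⁅X, K⁆, K⁆ = ⊥ := by
      rw [Subgroup.commutator_eq_bot_iff_le_centralizer]
      intro y hy
      rw [Subgroup.mem_centralizer_iff]
      intro k hk
      exact (h y (hXK hy) k hk).symm
    have h3 : ⁅⁅K, X⁆, K⁆ = ⊥ := by rw [Subgroup.commutator_comm K X]; exact h2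
    have h4 : ⁅⁅K, K⁆, X⁆ = ⊥ := Subgroup.commutator_commutator_eq_bot_of_rotate h3 h2
    rw [hQS.perf, Subgroup.commutator_eq_bot_iff_le_centralizer] at h4
    have h5 : ∀ x ∈ X, ∀ k ∈ K, x * k = k * x := by
      intro x hx k hk
      exact Subgroup.mem_centralizer_iff.1 (h4 hk) x hx
    exact ⟨fun x hx => hQS.cent x (hXH hx) (h5 x hx), h5⟩

end Cfsg.Agent.Lib.H16AltQ
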