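import Cfsg.Agent.Lib.H16AltDefs
import Cfsg.Agent.Lib.H16AltIso
import Cfsg.Agent.Lib.H16AltInj

set_option autoImplicit false

namespace Cfsg.Agent.Lib.H16AltSimple

open Cfsg Subgroup Equiv Equiv.Perm Cfsg.Agent.Lib.H16AltDefs

/-- PIECE Simple, part 1. -/
theorem eq_A {n : ℕ} {Δ : Finset (Fin n)} (h5 : 5 ≤ Δ.card) (K : Subgroup (Perm (Fin n)))
    (hle : K ≤ A Δ) (hne : K ≠ ⊥) (hnorm : ∀ a ∈ A Δ, ∀ k ∈ K, a * k * a⁻¹ ∈ K) : K = A Δ := by
  obtain ⟨e⟩ := Cfsg.Agent.Lib.H16AltIso.iso Δ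
  have h1 : IsSimpleGroup (alternatingGroup (Fin Δ.card)) :=
    alternatingGroup.isSimpleGroup (by simpa using h5)
  have h2 : IsSimpleGroup (A Δ) := e.isSimpleGroup
  have h3 : (K.subgroupOf (A Δ)).Normal := by
    refine ⟨fun k hk a => ?_⟩
    rw [Subgroup.mem_subgroupOf] at hk ⊢
    exact hnorm a a.2 k hk
  rcases h3.eq_bot_or_eq_top with h | h
  · exfalso
    apply hne
    rw [Subgroup.subgroupOf_eq_bot] at h
    rw [eq_bot_iff]
    exact h le_rfl hle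
  · rw [Subgroup.subgroupOf_eq_top] at h
    exact le_antisymm hle h

/-- PIECE Simple, part 2. -/
theorem center_trivial {n : ℕ} {Δ : Finset (Fin n)} (h5 : 5 ≤ Δ.card) (c : Perm (Fin n))
    (hc : c ∈ A Δ) (hcomm : ∀ k ∈ A Δ, c * k = k * c) : c = 1 := by
  by_contra hc1
  obtain ⟨x, hx⟩ : ∃ x, c x ≠ x := by
    by_contra hall
    push Not at hall
    exact hc1 (Equiv.ext hall)
  have hxΔ : x ∈ Δ := by
    by_contra h
    exact hx (hc.2 x h)
  have hyΔ : c x ∈ Δ := by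
    by_contra h
    exact hx (c.injective (hc.2 _ h))
  have hcard : 2 ≤ ((Δ.erase x).erase (c x)).card := by
    rw [Finset.card_erase_of_mem (Finset.mem_erase.2 ⟨hx, hyΔ⟩), Finset.card_erase_of_mem hxΔ]
    omega
  obtain ⟨z, hz, w, hw, hzw⟩ := Finset.one_lt_card.1 (by omega : 1 < ((Δ.erase x).erase (c x)).card)
  simp only [Finset.mem_erase] at hz hw
  have hk := Cfsg.Agent.Lib.H16AltInj.three_mem hyΔ hz.2.2 hw.2.2 hz.1.symm hw.1.symm hzw
  have h1 := congrArg (fun σ : Perm (Fin n) => σ x) (hcomm _ hk)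
  simp only [Perm.mul_apply] at h1
  rw [swap_apply_of_ne_of_ne hz.2.1.symm hw.2.1.symm, swap_apply_of_ne_of_ne hx.symm hz.2.1.symm,
    swap_apply_of_ne_of_ne hz.1.symm hw.1.symm, swap_apply_left] at h1
  exact hz.1 h1.symm

end Cfsg.Agent.Lib.H16AltSimple
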