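import Mathlib
import Cfsg.Prelude.Def_Transfer
import Cfsg.Agent.Lib.Helper3PGroup

set_option autoImplicit false

namespace Cfsg.Agent.Lib.Helper36Extra

open Cfsg
open scoped commutatorElement

/-! ### pairing lemma -/

theorem index_ker_le {A B : Type*} [Group A] [Group B] [Finite A] [Finite B]
    (f : A →* (B →* ℂˣ)) : f.ker.index ≤ f.flip.ker.index := by
  let R := f.flip.range
  let ev : A →* (R →* ℂˣ) :=
    { toFun := fun a =>
        { toFun := fun φ => (φ : A →* ℂˣ) a
          map_one' := rfl
          map_mul' := fun _ _ => rfl }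
      map_one' := by ext φ; simp
      map_mul' := fun a a' => by ext φ; simp }
  have hker : ev.ker = f.ker := by
    ext a
    rw [MonoidHom.mem_ker, MonoidHom.mem_ker]
    constructor
    · intro h
      ext b
      have := DFunLike.congr_fun h ⟨f.flip b, ⟨b, rfl⟩⟩
      simpa [ev] using congrArg Units.val this
    · intro h
      ext ⟨φ, b, rfl⟩
      have := DFunLike.congr_fun h b
      simpa [ev] using congrArg Units.val this
  rw [← hker, Subgroup.index_ker, Subgroup.index_ker]
  have hcard : Nat.card (R →* ℂˣ) = Nat.card R :=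
    CommGroup.card_monoidHom_of_hasEnoughRootsOfUnity R ℂ
  have hfin : Finite (R →* ℂˣ) := Nat.finite_of_card_ne_zero (by rw [hcard]; exact Nat.card_pos.ne')
  calc Nat.card ev.range ≤ Nat.card (R →* ℂˣ) := Subgroup.card_le_card_group _
    _ = Nat.card R := hcard

theorem index_ker_eq {A B : Type*} [Group A] [Group B] [Finite A] [Finite B]
    (f : A →* (B →* ℂˣ)) : f.ker.index = f.flip.ker.index :=
  le_antisymm (index_ker_le f) (by
    have h := index_ker_le f.flip
    have e : f.flip.flip = f := by ext; rfl
    rwa [e] at h)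

/-! ### extraspecial 2-subgroups, elementwise -/

variable {G : Type*} [Group G]

/-- Elementwise package: `Q` is an extraspecial 2-group with centre `{1, z}`. -/
structure Ex (Q : Subgroup G) (z : G) : Prop where
  mem : z ∈ Q
  ne_one : z ≠ 1
  sq : z * z = 1
  cen : ∀ a ∈ Q, a * z = z * a
  comm : ∀ a ∈ Q, ∀ b ∈ Q, a * b = b * a ∨ a * b = b * a * z
  center : ∀ a ∈ Q, (∀ b ∈ Q, a * b = b * a) → a = 1 ∨ a = z
  sqr : ∀ a ∈ Q, a * a = 1 ∨ a * a = z

theorem ex_of_isExtraspecial (Q : Subgroup G) [Finite Q] (h : IsExtraspecial 2 ↥Q) :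
    ∃ z, Ex Q z := by
  obtain ⟨⟨hp, hfr, hco⟩, hcard⟩ := h
  have : Fact (Nat.Prime 2) := ⟨Nat.prime_two⟩
  obtain ⟨x, y, hxy, huniv⟩ := Nat.card_eq_two_iff.mp hcard
  -- a nontrivial central element
  have hz : ∃ w : Subgroup.center Q, w ≠ 1 ∧ ∀ v : Subgroup.center Q, v = 1 ∨ v = w := by
    have h1 : (1 : Subgroup.center Q) ∈ ({x, y} : Set _) := by rw [huniv]; trivial
    rcases h1 with h1 | h1
    · refine ⟨y, fun e => hxy (by rw [← h1, e]), fun v => ?_⟩
      have hv : v ∈ ({x, y} : Set _) := by rw [huniv]; trivial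
      rcases hv with hv | hv
      · left; rw [hv, h1]
      · right; exact hv
    · rw [Set.mem_singleton_iff] at h1
      refine ⟨x, fun e => hxy (by rw [← h1, e]), fun v => ?_⟩
      have hv : v ∈ ({x, y} : Set _) := by rw [huniv]; trivial
      rcases hv with hv | hv
      · right; exact hv
      · left; rw [Set.mem_singleton_iff] at hv; rw [hv, h1]
  obtain ⟨w, hw1, hw⟩ := hz
  have hcz : ∀ c : Q, c ∈ Subgroup.center Q → c = 1 ∨ c = (w : Q) := by
    intro c hc
    rcases hw ⟨c, hc⟩ with h | h
    · left; exact congrArg Subtype.val h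
    · right; exact congrArg Subtype.val h
  have hwc : ∀ a : Q, a * (w : Q) = (w : Q) * a := fun a => Subgroup.mem_center_iff.mp w.2 a
  have hsq : ∀ a : Q, a * a = 1 ∨ a * a = (w : Q) := by
    intro a
    apply hcz
    rw [← hfr, ← pow_two]
    exact Cfsg.Agent.Lib.Helper3PGroup.pow_mem_frattini hp a
  refine ⟨((w : Q) : G), (w : Q).2, ?_, ?_, ?_, ?_, ?_, ?_⟩
  · intro e
    apply hw1
    apply Subtype.ext
    apply Subtype.ext
    exact e
  · rcases hsq (w : Q) with h | h
    · exact congrArg Subtype.val h
    · exfalso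
      apply hw1
      apply Subtype.ext
      have : (w : Q) * (w : Q) = (w : Q) * 1 := by rw [h, mul_one]
      exact mul_left_cancel this
  · intro a ha
    exact congrArg Subtype.val (hwc ⟨a, ha⟩)
  · intro a ha b hb
    have hc : ⁅(⟨a, ha⟩ : Q), ⟨b, hb⟩⁆ ∈ Subgroup.center Q := by
      rw [← hco]
      exact Subgroup.commutator_mem_commutator (Subgroup.mem_top _) (Subgroup.mem_top _)
    rcases hcz _ hc with h | h
    · left
      have := congrArg Subtype.val h
      simp only [commutatorElement_def, Subgroup.coe_mul, Subgroup.coe_inv, Subgroup.coe_one] at this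
      calc a * b = (a * b * a⁻¹ * b⁻¹) * (b * a) := by group
        _ = b * a := by rw [this, one_mul]
    · right
      have h' := congrArg Subtype.val h
      simp only [commutatorElement_def, Subgroup.coe_mul, Subgroup.coe_inv] at h'
      have h2 := congrArg Subtype.val (hwc (⟨b, hb⟩ * ⟨a, ha⟩))
      simp only [Subgroup.coe_mul] at h2
      calc a * b = (a * b * a⁻¹ * b⁻¹) * (b * a) := by group
        _ = b * a * ((w : Q) : G) := by rw [h', h2]
  · intro a ha hab
    have : (⟨a, ha⟩ : Q) ∈ Subgroup.center Q := by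
      rw [Subgroup.mem_center_iff]
      intro g
      exact Subtype.ext (hab g g.2).symm
    rcases hcz _ this with h | h
    · left; exact congrArg Subtype.val h
    · right; exact congrArg Subtype.val h
  · intro a ha
    rcases hsq ⟨a, ha⟩ with h | h
    · left; exact congrArg Subtype.val h
    · right; exact congrArg Subtype.val h

open Classical in
/-- the commutator sign -/
noncomputable def β (a b : G) : ℂˣ := if a * b = b * a then 1 else -1

theorem β_symm (a b : G) : β a b = β b a := by
  unfold β
  by_cases h : a * b = b * a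
  · rw [if_pos h, if_pos h.symm]
  · rw [if_neg h, if_neg (fun e => h e.symm)]

theorem β_eq_one_iff {a b : G} : β a b = 1 ↔ a * b = b * a := by
  unfold β
  by_cases h : a * b = b * a
  · simp [h]
  · simp only [h, if_false, iff_false]
    intro e
    have := congrArg Units.val e
    norm_num at this

theorem β_of_comm {a b : G} (h : a * b = b * a) : β a b = 1 := β_eq_one_iff.mpr h

theorem β_of_not_comm {a b : G} (h : a * b ≠ b * a) : β a b = -1 := by
  unfold β; rw [if_neg h]

theorem β_conj (t a b : G) : β (t * a * t⁻¹) (t * b * t⁻¹) = β a b := by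
  by_cases h : a * b = b * a
  · rw [β_of_comm h, β_of_comm]
    calc t * a * t⁻¹ * (t * b * t⁻¹) = t * (a * b) * t⁻¹ := by group
      _ = t * (b * a) * t⁻¹ := by rw [h]
      _ = _ := by group
  · rw [β_of_not_comm h, β_of_not_comm]
    intro e
    apply h
    calc a * b = t⁻¹ * (t * a * t⁻¹ * (t * b * t⁻¹)) * t := by group
      _ = t⁻¹ * (t * b * t⁻¹ * (t * a * t⁻¹)) * t := by rw [e]
      _ = b * a := by group

namespace Ex

variable {Q : Subgroup G} {z : G}

theorem ne_of_anti (h : Ex Q z) {a b : G} (h2 : a * b = b * a * z) : a * b ≠ b * a := by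
  intro h1
  apply h.ne_one
  have : b * a * z = b * a * 1 := by rw [← h2, h1, mul_one]
  exact mul_left_cancel this

theorem anti_of_ne (h : Ex Q z) {a b : G} (ha : a ∈ Q) (hb : b ∈ Q) (hne : a * b ≠ b * a) :
    a * b = b * a * z := (h.comm a ha b hb).resolve_left hne

theorem β_mul_right (h : Ex Q z) {a b c : G} (ha : a ∈ Q) (hb : b ∈ Q) (hc : c ∈ Q) :
    β a (b * c) = β a b * β a c := by
  rcases h.comm a ha b hb with h1 | h1 <;> rcases h.comm a ha c hc with h2 | h2
  · rw [β_of_comm h1, β_of_comm h2, β_of_comm]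
    · simp
    · calc a * (b * c) = (a * b) * c := by group
        _ = b * (a * c) := by rw [h1]; group
        _ = b * c * a := by rw [h2]; group
  · rw [β_of_comm h1, β_of_not_comm (h.ne_of_anti h2), β_of_not_comm]
    · simp
    · apply h.ne_of_anti
      calc a * (b * c) = (a * b) * c := by group
        _ = b * (a * c) := by rw [h1]; group
        _ = b * c * a * z := by rw [h2]; group
  · rw [β_of_not_comm (h.ne_of_anti h1), β_of_comm h2, β_of_not_comm]
    · simp
    · apply h.ne_of_anti
      calc a * (b * c) = (a * b) * c := by group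
        _ = b * a * (z * c) := by rw [h1]; group
        _ = b * (a * c) * z := by rw [← h.cen c hc]; group
        _ = b * c * a * z := by rw [h2]; group
  · rw [β_of_not_comm (h.ne_of_anti h1), β_of_not_comm (h.ne_of_anti h2), β_of_comm]
    · simp
    · calc a * (b * c) = (a * b) * c := by group
        _ = b * a * (z * c) := by rw [h1]; group
        _ = b * (a * c) * z := by rw [← h.cen c hc]; group
        _ = b * c * a * (z * z) := by rw [h2]; group
        _ = b * c * a := by rw [h.sq, mul_one]

theorem β_mul_left (h : Ex Q z) {a b c : G} (ha : a ∈ Q) (hb : b ∈ Q) (hc : c ∈ Q) :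
    β (a * b) c = β a c * β b c := by
  rw [β_symm, h.β_mul_right hc ha hb, β_symm c a, β_symm c b]

/-- the commutator pairing of an extraspecial 2-group -/
noncomputable def pair (h : Ex Q z) : Q →* (Q →* ℂˣ) :=
  MonoidHom.mk' (fun a => MonoidHom.mk' (fun b => β (a : G) (b : G))
      (fun b c => h.β_mul_right a.2 b.2 c.2))
    (fun a a' => by
      ext b
      exact congrArg Units.val (h.β_mul_left a.2 a'.2 b.2))

theorem pair_apply (h : Ex Q z) (a b : Q) : h.pair a b = β (a : G) (b : G) := rfl

/-- `|U| |C_Q(U)| = 2 |Q|` for `z ∈ U ≤ Q`. -/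
theorem cent_card (h : Ex Q z) [Finite Q] (U : Subgroup G) (hU : U ≤ Q) (hz : z ∈ U) :
    Nat.card U * Nat.card ↥(Q ⊓ Subgroup.centralizer (U : Set G)) = 2 * Nat.card Q := by
  have : Finite U := Finite.of_injective (Subgroup.inclusion hU) (Subgroup.inclusion_injective hU)
  set f : U →* (Q →* ℂˣ) := h.pair.comp (Subgroup.inclusion hU) with hf
  have hfa : ∀ (u : U) (b : Q), f u b = β (u : G) (b : G) := fun u b => rfl
  have h1 : f.ker.index * Nat.card f.ker = Nat.card U := Subgroup.index_mul_card _
  have h2 : f.flip.ker.index * Nat.card f.flip.ker = Nat.card Q := Subgroup.index_mul_card _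
  have h3 : Nat.card f.ker = 2 := by
    rw [Nat.card_eq_two_iff]
    have hzk : (⟨z, hz⟩ : U) ∈ f.ker := by
      rw [MonoidHom.mem_ker]
      ext b
      rw [hfa]
      exact congrArg Units.val (β_of_comm (h.cen b b.2).symm)
    refine ⟨1, ⟨⟨z, hz⟩, hzk⟩, ?_, ?_⟩
    · intro e
      apply h.ne_one
      have := congrArg (fun x : f.ker => ((x : U) : G)) e
      exact this.symm
    · rw [Set.eq_univ_iff_forall]
      rintro ⟨u, hu⟩
      rw [MonoidHom.mem_ker] at hu
      have hc : ∀ b ∈ Q, (u : G) * b = b * u := by
        intro b hb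
        rw [← β_eq_one_iff]
        have := DFunLike.congr_fun hu ⟨b, hb⟩
        rw [hfa] at this
        exact this
      rcases h.center u (hU u.2) hc with e | e
      · left
        apply Subtype.ext
        apply Subtype.ext
        exact e
      · right
        rw [Set.mem_singleton_iff]
        apply Subtype.ext
        apply Subtype.ext
        exact e
  have h4 : Nat.card f.flip.ker = Nat.card ↥(Q ⊓ Subgroup.centralizer (U : Set G)) := by
    have e : f.flip.ker.map Q.subtype = Q ⊓ Subgroup.centralizer (U : Set G) := by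
      ext x
      rw [Subgroup.mem_inf]
      constructor
      · rintro ⟨b, hb, rfl⟩
        refine ⟨b.2, ?_⟩
        rw [Subgroup.mem_centralizer_iff]
        intro u hu
        rw [SetLike.mem_coe, MonoidHom.mem_ker] at hb
        have := DFunLike.congr_fun hb ⟨u, hu⟩
        exact β_eq_one_iff.mp this
      · rintro ⟨hxQ, hxc⟩
        refine ⟨⟨x, hxQ⟩, ?_, rfl⟩
        rw [SetLike.mem_coe, MonoidHom.mem_ker]
        ext u
        rw [Subgroup.mem_centralizer_iff] at hxc
        exact congrArg Units.val (β_of_comm (hxc u u.2))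
    rw [← e]
    exact (Subgroup.card_map_of_injective Q.subtype_injective).symm
  have h5 := index_ker_eq f
  rw [← h4, ← h1, ← h2, h3, h5]
  ring

end Ex

end Cfsg.Agent.Lib.Helper36Extra
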