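import Cfsg.Agent.S1757
import Cfsg.Agent.S1780

set_option autoImplicit false

namespace Cfsg.Agent.Lib.Helper36TI

variable {G : Type*} [Group G]

/-- conjugate of a subgroup -/
abbrev cj (g : G) (A : Subgroup G) : Subgroup G := A.map (MulAut.conj g).toMonoidHom

theorem mem_cj {g x : G} {A : Subgroup G} : x ∈ cj g A ↔ g⁻¹ * x * g ∈ A := by
  constructor
  · rintro ⟨y, hy, rfl⟩
    have : g⁻¹ * ((MulAut.conj g).toMonoidHom y) * g = y := by
      simp [MulAut.conj_apply, mul_assoc]
    rw [this]; exact hy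
  · intro h
    exact ⟨g⁻¹ * x * g, h, by simp [MulAut.conj_apply, mul_assoc]⟩

theorem conj_mem_cj {g x : G} {A : Subgroup G} (hx : x ∈ A) : g * x * g⁻¹ ∈ cj g A :=
  ⟨x, hx, by simp [MulAut.conj_apply]⟩

theorem cj_cj (g h : G) (A : Subgroup G) : cj h (cj g A) = cj (h * g) A := by
  ext x
  simp only [mem_cj]
  have : g⁻¹ * (h⁻¹ * x * h) * g = (h * g)⁻¹ * x * (h * g) := by group
  rw [this]

theorem cj_one (A : Subgroup G) : cj 1 A = A := by
  ext x; rw [mem_cj]; simp

theorem cj_inf (g : G) (A B : Subgroup G) : cj g (A ⊓ B) = cj g A ⊓ cj g B := by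
  ext x; simp only [mem_cj, Subgroup.mem_inf]

theorem cj_bot (g : G) : cj g (⊥ : Subgroup G) = ⊥ := by
  simp [cj]

theorem cj_injective (g : G) : Function.Injective (cj g : Subgroup G → Subgroup G) := by
  intro A B h
  have := congrArg (cj g⁻¹) h
  simpa [cj_cj, cj_one] using this

theorem card_cj (g : G) (A : Subgroup G) : Nat.card (cj g A) = Nat.card A :=
  Nat.card_congr ((MulAut.conj g).subgroupMap A).toEquiv.symm

theorem cj_eq_self_iff {g : G} {A : Subgroup G} :
    cj g A = A ↔ g ∈ Subgroup.normalizer (A : Set G) := by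
  rw [Subgroup.mem_normalizer_iff]
  constructor
  · intro h x
    constructor
    · intro hx
      have := conj_mem_cj (g := g) hx
      rwa [h] at this
    · intro hx
      rw [← h, mem_cj] at hx
      have e : g⁻¹ * (g * x * g⁻¹) * g = x := by group
      rwa [e] at hx
  · intro h
    ext x
    rw [mem_cj, h (g⁻¹ * x * g)]
    have e : g * (g⁻¹ * x * g) * g⁻¹ = x := by group
    rw [e]

theorem cj_eq_self_of_mem {g : G} {A : Subgroup G} (hg : g ∈ A) : cj g A = A :=
  cj_eq_self_iff.mpr (Subgroup.le_normalizer hg)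

theorem cj_mono {g : G} {A B : Subgroup G} (h : A ≤ B) : cj g A ≤ cj g B := Subgroup.map_mono h

/-- TI-property of `A` passes to conjugates, in the symmetric form. -/
theorem ti_pair {A : Subgroup G} (hti : ∀ h : G, cj h A = A ∨ cj h A ⊓ A = ⊥) (x y : G) :
    cj x A = cj y A ∨ cj x A ⊓ cj y A = ⊥ := by
  rcases hti (y⁻¹ * x) with h | h
  · left
    have := congrArg (cj y) h
    simpa [cj_cj] using this
  · right
    have := congrArg (cj y) h
    simpa [cj_cj, cj_inf, cj_bot] using this

/-- Subgroup version of S1780: an element of 2-power order normalizing an abelian 2-subgroup `B` with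
`C_B(a²) ≤ C_B(a)` centralizes `B`. -/
theorem centralizes_of_sq (B : Subgroup G) (hB2 : IsPGroup 2 B)
    (hBc : ∀ x ∈ B, ∀ y ∈ B, x * y = y * x) (a : G)
    (ha : a ∈ Subgroup.normalizer (B : Set G)) (k : ℕ) (hk : a ^ (2 ^ k) = 1)
    (hC : ∀ b ∈ B, a ^ 2 * b * (a ^ 2)⁻¹ = b → a * b * a⁻¹ = b) :
    ∀ b ∈ B, a * b * a⁻¹ = b := by
  have hcomm : IsMulCommutative B := ⟨⟨fun x y => Subtype.ext (hBc x x.2 y y.2)⟩⟩
  let _ : CommGroup B := { (inferInstance : Group B) with mul_comm := fun x y => Subtype.ext (hBc x x.2 y y.2) }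
  have ha1 : ∀ b ∈ B, a * b * a⁻¹ ∈ B := fun b hb => (Subgroup.mem_normalizer_iff.mp ha b).mp hb
  have ha2 : ∀ b ∈ B, a⁻¹ * b * a ∈ B := fun b hb => by
    have := (Subgroup.mem_normalizer_iff.mp (Subgroup.inv_mem _ ha) b).mp hb
    simpa using this
  let t : MulAut B :=
    { toFun := fun b => ⟨a * b * a⁻¹, ha1 b b.2⟩
      invFun := fun b => ⟨a⁻¹ * b * a, ha2 b b.2⟩
      left_inv := fun b => Subtype.ext (by simp [mul_assoc])
      right_inv := fun b => Subtype.ext (by simp [mul_assoc])
      map_mul' := fun b c => Subtype.ext (by simp [mul_assoc]) }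
  have ht : ∀ b : B, ((t b : B) : G) = a * b * a⁻¹ := fun b => rfl
  have htn : ∀ (n : ℕ) (b : B), (((t ^ n) b : B) : G) = a ^ n * b * (a ^ n)⁻¹ := by
    intro n
    induction n with
    | zero => intro b; simp
    | succ n ih =>
      intro b
      rw [pow_succ, MulAut.mul_apply, ih, ht, pow_succ]
      group
  have hC' : ∀ b : B, t (t b) = b → t b = b := by
    intro b hb
    apply Subtype.ext
    rw [ht]
    apply hC b b.2
    have := congrArg (fun x : B => (x : G)) hb
    simp only [ht] at this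
    rw [pow_two]
    calc a * a * (b : G) * (a * a)⁻¹ = a * (a * ↑b * a⁻¹) * a⁻¹ := by group
      _ = b := this
  intro b hb
  have := Cfsg.Agent.S1780.main hB2 t hC' k ⟨b, hb⟩ (by
    apply Subtype.ext
    rw [htn, hk]; simp)
  exact congrArg (fun x : B => (x : G)) this

end Cfsg.Agent.Lib.Helper36TI
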