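import Cfsg.Agent.Lib.Helper28Layer
import Cfsg.Agent.Lib.Helper28Util
import Cfsg.Agent.Lib.Helper36TI
import Cfsg.Agent.Lib.Helper36Extra
import Cfsg.Prelude.Def_ClassificationK

set_option autoImplicit false

namespace Cfsg.Agent.Lib.Helper36GF2

open Cfsg Cfsg.Agent.Lib.Helper28Comp Cfsg.Agent.Lib.Helper28Layer Cfsg.Agent.Lib.Helper28Util
open Cfsg.Agent.Lib.Helper36TI Cfsg.Agent.Lib.Helper36Extra

variable {G : Type*} [Group G]

/-- the centralizer of `z` -/
abbrev CC (z : G) : Subgroup G := Subgroup.centralizer ({z} : Set G)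

/-- `F*(C_G(z))` viewed in `G` -/
abbrev QF (z : G) : Subgroup G :=
  (generalizedFittingSubgroup ↥(CC z)).map (CC z).subtype

theorem mem_CC {z c : G} : c ∈ CC z ↔ c * z = z * c := Subgroup.mem_centralizer_singleton_iff

theorem QF_eq (z : G) : QF z = gfitIn (CC z) := map_gfit (CC z)

theorem QF_le (z : G) : QF z ≤ CC z := Subgroup.map_subtype_le _

theorem CC_le_normalizer_QF (z : G) : CC z ≤ Subgroup.normalizer (QF z : Set G) := by
  rw [QF_eq]; exact (gfitIn_normIn (CC z)).2

theorem conj_mem_QF {z c q : G} (hc : c ∈ CC z) (hq : q ∈ QF z) : c * q * c⁻¹ ∈ QF z :=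
  (Subgroup.mem_normalizer_iff.mp (CC_le_normalizer_QF z hc) q).mp hq

theorem self_mem_QF (z : G) : z ∈ QF z := by
  rw [QF_eq]
  apply fittingIn_le_gfitIn
  have hn : NormIn (Subgroup.zpowers z) (CC z) := by
    refine ⟨?_, ?_⟩
    · rw [Subgroup.zpowers_le]; exact mem_CC.mpr rfl
    · intro c hc
      rw [Subgroup.mem_normalizer_iff]
      have hcz : c * z = z * c := mem_CC.mp hc
      have key : ∀ x ∈ Subgroup.zpowers z, c * x * c⁻¹ = x := by
        rintro _ ⟨k, rfl⟩
        have : Commute c (z ^ k) := (show Commute c z from hcz).zpow_right k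
        simp only
        rw [this.eq]; group
      intro x
      constructor
      · intro hx; rw [key x hx]; exact hx
      · intro hx
        have h2 := key _ hx
        have h3 : c * x * c⁻¹ = x := by
          have : c * (c * x * c⁻¹) * c⁻¹ = c * x * c⁻¹ := h2
          calc c * x * c⁻¹ = c⁻¹ * (c * (c * x * c⁻¹) * c⁻¹) * c := by group
            _ = c⁻¹ * (c * x * c⁻¹) * c := by rw [this]
            _ = x := by group
        rw [← h3]; exact hx
  have hnil : Group.IsNilpotent (Subgroup.zpowers z) := by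
    open scoped IsMulCommutative in exact inferInstance
  exact le_fittingIn hn hnil (Subgroup.mem_zpowers z)

theorem centralizer_QF_le [Finite G] (z : G) :
    CC z ⊓ Subgroup.centralizer (QF z : Set G) ≤ QF z := by
  rw [QF_eq]
  exact (inf_centralizer_gfitIn_le (CC z)).trans (fittingIn_le_gfitIn _)

theorem CC_conj (g z : G) : CC (g * z * g⁻¹) = cj g (CC z) :=
  (map_conj_centralizer_singleton g z).symm

theorem QF_conj (g z : G) : QF (g * z * g⁻¹) = cj g (QF z) := by
  rw [QF_eq, QF_eq, CC_conj]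
  exact (gfitIn_map (f := (MulAut.conj g).toMonoidHom) (MulAut.conj g).injective (CC z)).symm

instance gfit_normal (H : Type*) [Group H] : (generalizedFittingSubgroup H).Normal := by
  rw [gfit_eq, ← normIn_top_iff]
  exact gfitIn_normIn ⊤

/-- the isomorphism from `F*(C_G(z))` to its image in `G` -/
noncomputable def QFequiv (z : G) : ↥(generalizedFittingSubgroup ↥(CC z)) ≃* ↥(QF z) :=
  Subgroup.equivMapOfInjective _ _ (CC z).subtype_injective

theorem QFequiv_coe (z : G) (x : ↥(generalizedFittingSubgroup ↥(CC z))) :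
    ((QFequiv z x : ↥(QF z)) : G) = ((x : ↥(CC z)) : G) := rfl

theorem Ex.map_injective {G' : Type*} [Group G'] {f : G →* G'} (hf : Function.Injective f)
    {Q : Subgroup G} {z : G} (h : Ex Q z) : Ex (Q.map f) (f z) where
  mem := ⟨z, h.mem, rfl⟩
  ne_one := fun e => h.ne_one (hf (by rw [e, map_one]))
  sq := by rw [← map_mul, h.sq, map_one]
  cen := by
    rintro _ ⟨a, ha, rfl⟩
    rw [← map_mul, ← map_mul, h.cen a ha]
  comm := by
    rintro _ ⟨a, ha, rfl⟩ _ ⟨b, hb, rfl⟩
    rcases h.comm a ha b hb with e | e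
    · left; rw [← map_mul, ← map_mul, e]
    · right; rw [← map_mul, ← map_mul, ← map_mul, e]
  center := by
    rintro _ ⟨a, ha, rfl⟩ hc
    have : ∀ b ∈ Q, a * b = b * a := fun b hb => hf (by
      rw [map_mul, map_mul]; exact hc _ ⟨b, hb, rfl⟩)
    rcases h.center a ha this with e | e
    · left; rw [e, map_one]
    · right; rw [e]
  sqr := by
    rintro _ ⟨a, ha, rfl⟩
    rcases h.sqr a ha with e | e
    · left; rw [← map_mul, e, map_one]
    · right; rw [← map_mul, e]

/-- If `F*(C_G(z))` is extraspecial then its image in `G` is extraspecial with centre `{1, z}`. -/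
theorem ex_QF [Finite G] {z : G} (hz : z ≠ 1)
    (hE : IsExtraspecial 2 ↥(generalizedFittingSubgroup ↥(CC z))) : Ex (QF z) z := by
  obtain ⟨w, hw⟩ := ex_of_isExtraspecial (generalizedFittingSubgroup ↥(CC z)) hE
  have h1 : Ex (QF z) ((CC z).subtype w) := Ex.map_injective (CC z).subtype_injective hw
  have h2 : z = 1 ∨ z = (CC z).subtype w := by
    apply h1.center z (self_mem_QF z)
    intro b hb
    exact (mem_CC.mp (QF_le z hb)).symm
  rw [← h2.resolve_left hz] at h1
  exact h1

end Cfsg.Agent.Lib.Helper36GF2
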