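import Cfsg.Agent.Lib.H16AltDefs
import Cfsg.Agent.S1265
import Cfsg.Agent.Lib.Helper36GF2

set_option autoImplicit false

namespace Cfsg.Agent.Lib.H16AltTr

open Cfsg Subgroup Equiv Equiv.Perm Cfsg.Agent.Lib.H16AltDefs
open scoped commutatorElement

/-- A normal subgroup of a quasisimple group is everything or central. -/
theorem qs_normal {F : Type*} [Group F] (hF : Cfsg.IsQuasisimple F) (X : Subgroup F) [hX : X.Normal] :
    X = ⊤ ∨ X ≤ center F := by
  obtain ⟨hp, hs⟩ := hF
  have h0 := hs.eq_bot_or_eq_top_of_normal (X.map (QuotientGroup.mk' (center F)))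
    (Subgroup.Normal.map hX _ (QuotientGroup.mk'_surjective _))
  rcases h0 with h | h
  · right
    intro x hx
    have h1 : (QuotientGroup.mk' (center F)) x ∈ X.map (QuotientGroup.mk' (center F)) :=
      mem_map_of_mem _ hx
    rw [h, mem_bot] at h1
    exact (QuotientGroup.eq_one_iff x).1 h1
  · left
    have h1 : X ⊔ center F = ⊤ := by
      have h2 := congrArg (Subgroup.comap (QuotientGroup.mk' (center F))) h
      rw [Subgroup.comap_map_eq, QuotientGroup.ker_mk', comap_top] at h2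
      exact h2
    have h2 : ⁅(⊤ : Subgroup F), ⊤⁆ ≤ X := by
      rw [← h1, commutator_le]
      intro a ha b hb
      rw [mem_sup_of_normal_left] at ha hb
      obtain ⟨x, hx, z, hz, rfl⟩ := ha
      obtain ⟨y, hy, w, hw, rfl⟩ := hb
      rw [mem_center_iff] at hz hw
      have h3 : ⁅x * z, y * w⁆ = ⁅x, y⁆ := by
        rw [commutatorElement_def, commutatorElement_def]
        have e1 : (x * z) * (y * w) = (x * y) * (z * w) := by
          rw [mul_assoc, ← mul_assoc z y w, ← hz y]; group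
        have e2 : (x * z)⁻¹ * (y * w)⁻¹ = x⁻¹ * y⁻¹ * (z * w)⁻¹ := by
          have e3 : (x * z)⁻¹ * (y * w)⁻¹ = ((y * w) * (x * z))⁻¹ := by group
          have e4 : x⁻¹ * y⁻¹ * (z * w)⁻¹ = ((z * w) * (y * x))⁻¹ := by group
          rw [e3, e4]
          congr 1
          rw [mul_assoc z w, ← hw (y * x), ← hz]
          rw [mul_assoc y w, ← mul_assoc w x z, ← hw x]; group
        have e5 : ∀ u : F, (z * w) * u = u * (z * w) := by
          intro u
          rw [mul_assoc, ← hw u, ← mul_assoc, ← hz u, mul_assoc]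
        calc (x * z) * (y * w) * (x * z)⁻¹ * (y * w)⁻¹
            = (x * z) * (y * w) * ((x * z)⁻¹ * (y * w)⁻¹) := by group
          _ = (x * y) * (z * w) * (x⁻¹ * y⁻¹ * (z * w)⁻¹) := by rw [e1, e2]
          _ = (x * y) * ((z * w) * (x⁻¹ * y⁻¹)) * (z * w)⁻¹ := by group
          _ = (x * y) * ((x⁻¹ * y⁻¹) * (z * w)) * (z * w)⁻¹ := by rw [e5]
          _ = x * y * x⁻¹ * y⁻¹ := by group
      rw [h3, commutatorElement_def]
      have h4 : y * x⁻¹ * y⁻¹ ∈ X := hX.conj_mem _ (X.inv_mem hx) y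
      have h5 : x * y * x⁻¹ * y⁻¹ = x * (y * x⁻¹ * y⁻¹) := by group
      rw [h5]
      exact X.mul_mem hx h4
    have h3 : ⁅(⊤ : Subgroup F), ⊤⁆ = ⊤ := hp.commutator_eq_top
    rw [h3] at h2
    exact top_le_iff.1 h2

/-- PIECE Tr.  Transfer of the hypothesis `F*(H)` quasisimple to the ambient group. -/
theorem transfer {G : Type*} [Group G] [Finite G] (H : Subgroup G)
    (hF : Cfsg.IsQuasisimple ↥(Cfsg.generalizedFittingSubgroup ↥H)) :
    ∃ K : Subgroup G, QS H K ∧ Nonempty (↥(Cfsg.generalizedFittingSubgroup ↥H) ≃* K) := by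
  set F : Subgroup ↥H := Cfsg.generalizedFittingSubgroup ↥H with hFdef
  have hFn : F.Normal := Cfsg.Agent.Lib.Helper36GF2.gfit_normal ↥H
  have hmem : ∀ k : G, k ∈ F.map H.subtype ↔ ∃ hk : k ∈ H, (⟨k, hk⟩ : ↥H) ∈ F := by
    intro k
    constructor
    · rintro ⟨f, hf, rfl⟩
      exact ⟨f.2, hf⟩
    · rintro ⟨hk, hf⟩
      exact ⟨⟨k, hk⟩, hf, rfl⟩
  refine ⟨F.map H.subtype, ?_, ⟨Subgroup.equivMapOfInjective F H.subtype H.subtype_injective⟩⟩
  refine ⟨map_subtype_le F, ?_, ?_, ?_, ?_, ?_⟩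
  · intro h hh k hk
    obtain ⟨hkH, hkF⟩ := (hmem k).1 hk
    refine (hmem _).2 ⟨H.mul_mem (H.mul_mem hh hkH) (H.inv_mem hh), ?_⟩
    exact hFn.conj_mem _ hkF ⟨h, hh⟩
  · rw [← Subgroup.map_commutator]
    congr 1
    exact (Subgroup.isPerfect_iff).1 hF.1
  · intro X hXK hXn
    set X' : Subgroup ↥F := (X.comap H.subtype).subgroupOf F with hX'
    have hX'mem : ∀ f : ↥F, f ∈ X' ↔ ((f : ↥H) : G) ∈ X := by
      intro f
      rw [hX', mem_subgroupOf, mem_comap]
      rfl
    have hX'n : X'.Normal := by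
      constructor
      intro f hf g
      rw [hX'mem] at hf ⊢
      have := hXn ((g : ↥H) : G) ((hmem _).2 ⟨(g : ↥H).2, g.2⟩) _ hf
      simpa using this
    rcases qs_normal hF X' with h | h
    · left
      apply le_antisymm hXK
      intro k hk
      obtain ⟨hkH, hkF⟩ := (hmem k).1 hk
      have : (⟨⟨k, hkH⟩, hkF⟩ : ↥F) ∈ X' := by rw [h]; exact mem_top _
      exact (hX'mem _).1 this
    · right
      intro x hx k hk
      obtain ⟨hkH, hkF⟩ := (hmem k).1 hk
      obtain ⟨hxH, hxF⟩ := (hmem x).1 (hXK hx)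
      have h1 : (⟨⟨x, hxH⟩, hxF⟩ : ↥F) ∈ center ↥F := h ((hX'mem _).2 hx)
      rw [mem_center_iff] at h1
      have h2 := h1 ⟨⟨k, hkH⟩, hkF⟩
      have h3 := congrArg (fun f : ↥F => ((f : ↥H) : G)) h2
      simpa using h3.symm
  · intro h hh hc
    refine (hmem h).2 ⟨hh, ?_⟩
    apply Cfsg.Agent.S1265.result
    rw [mem_centralizer_iff]
    intro f hf
    apply Subtype.ext
    have := hc (f : G) ((hmem _).2 ⟨f.2, hf⟩)
    simpa using this.symm
  · intro hbot
    have hFbot : F = ⊥ := by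
      rw [eq_bot_iff]
      intro f hf
      have : (f : G) ∈ F.map H.subtype := (hmem _).2 ⟨f.2, hf⟩
      rw [hbot, mem_bot] at this
      rw [mem_bot]
      exact Subtype.ext this
    have hsub : Subsingleton ↥F := by
      rw [hFbot]; infer_instance
    have hs := hF.2
    have hnt : Nontrivial (↥F ⧸ center ↥F) := hs.toNontrivial
    obtain ⟨a, b, hab⟩ := hnt
    apply hab
    induction a using QuotientGroup.induction_on with | _ a => ?_
    induction b using QuotientGroup.induction_on with | _ b => ?_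
    rw [Subsingleton.elim a b]

end Cfsg.Agent.Lib.H16AltTr
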