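import Mathlib
import Cfsg.Prelude.Def_Characters

/-!
# Vocabulary of PROJECT 4467 (Winter's theorem on solvable linear groups, row S4467)
-/

set_option autoImplicit false

namespace Cfsg.Agent.Lib.Helper19WinDefs

open Cfsg

/-- the conclusion of Winter's theorem: `n` is divisible by a prime power `≡ -1, 0, 1 (mod p)`. -/
def Good (p n : ℕ) : Prop :=
  ∃ q : ℕ, IsPrimePow q ∧ q ∣ n ∧
    ((q : ℤ) ≡ -1 [ZMOD p] ∨ (q : ℤ) ≡ 0 [ZMOD p] ∨ (q : ℤ) ≡ 1 [ZMOD p])

theorem Good.mono {p m n : ℕ} (h : Good p m) (hmn : m ∣ n) : Good p n := by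
  obtain ⟨q, h1, h2, h3⟩ := h
  exact ⟨q, h1, h2.trans hmn, h3⟩

theorem good_of_dvd {p n : ℕ} (hp : p.Prime) (h : p ∣ n) : Good p n :=
  ⟨p, hp.isPrimePow, h, Or.inr (Or.inl (by simp))⟩

/-- `θ` is an irreducible constituent of the restriction of `χ` to the subgroup `N`. -/
def Under {G : Type*} [Group G] (χ : G → ℂ) (N : Subgroup G) [Fintype N] (θ : N → ℂ) : Prop :=
  IsIrrCharacter N θ ∧ classInner (fun x : N => χ x) θ ≠ 0

/-- the restriction of `χ` to `N` is homogeneous (has only one irreducible constituent). -/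
def Homog {G : Type*} [Group G] (χ : G → ℂ) (N : Subgroup G) [Fintype N] : Prop :=
  ∀ θ₁ θ₂ : N → ℂ, Under χ N θ₁ → Under χ N θ₂ → θ₁ = θ₂

end Cfsg.Agent.Lib.Helper19WinDefs
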