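import Mathlib
import Cfsg.Agent.Lib.Helper19WinDefs


set_option autoImplicit false
set_option linter.style.haveILetI false

namespace Cfsg.Agent.Lib.H19WinSect

open Cfsg Cfsg.Agent.Lib.Helper19WinDefs

/-- a nontrivial finite solvable group has a nontrivial normal abelian subgroup of prime exponent. -/
theorem exists_normal_elementary {H : Type*} [Group H] [Finite H] [Nontrivial H]
    (hs : Group.IsSolvable H) :
    ∃ (r : ℕ) (E : Subgroup H), r.Prime ∧ E.Normal ∧ E ≠ ⊥ ∧ (∀ a ∈ E, ∀ b ∈ E, a * b = b * a) ∧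
      ∀ a ∈ E, a ^ r = 1 := by
  classical
  have hex : ∃ n, derivedSeries H n = ⊥ := hs.solvable
  set j := Nat.find hex with hj
  have hjs : derivedSeries H j = ⊥ := Nat.find_spec hex
  have hj0 : j ≠ 0 := by
    intro h0
    rw [h0, derivedSeries_zero] at hjs
    exact top_ne_bot hjs
  obtain ⟨i, hi⟩ : ∃ i, j = i + 1 := ⟨j - 1, by omega⟩
  set D := derivedSeries H i with hD
  have hD1 : D ≠ ⊥ := Nat.find_min hex (by omega : i < j)
  have hDD : ⁅D, D⁆ = ⊥ := by
    rw [hi, derivedSeries_succ] at hjs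
    exact hjs
  have hDn : D.Normal := derivedSeries_normal H i
  have hcomm : ∀ a ∈ D, ∀ b ∈ D, a * b = b * a := by
    intro a ha b hb
    have h1 := Subgroup.commutator_mem_commutator ha hb
    rw [hDD, Subgroup.mem_bot] at h1
    exact commutatorElement_eq_one_iff_mul_comm.1 h1
  have hcard : Nat.card D ≠ 1 := fun h => hD1 (Subgroup.card_eq_one.1 h)
  obtain ⟨r, hr, hrd⟩ := Nat.exists_prime_and_dvd hcard
  haveI : Fact r.Prime := ⟨hr⟩
  obtain ⟨d₀, hd₀⟩ := exists_prime_orderOf_dvd_card' r hrd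
  let E : Subgroup H :=
    { carrier := {d | d ∈ D ∧ d ^ r = 1}
      one_mem' := ⟨D.one_mem, one_pow _⟩
      mul_mem' := by
        rintro a b ⟨ha, ha'⟩ ⟨hb, hb'⟩
        refine ⟨D.mul_mem ha hb, ?_⟩
        rw [(show Commute a b from hcomm a ha b hb).mul_pow, ha', hb', one_mul]
      inv_mem' := by
        rintro a ⟨ha, ha'⟩
        exact ⟨D.inv_mem ha, by rw [inv_pow, ha', inv_one]⟩ }
  refine ⟨r, E, hr, ?_, ?_, ?_, ?_⟩
  · constructor
    rintro a ⟨ha, ha'⟩ g
    exact ⟨hDn.conj_mem a ha g, by rw [conj_pow, ha', mul_one, mul_inv_cancel]⟩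
  · intro hE
    have h1 : (d₀ : H) ∈ E := ⟨d₀.2, by
      rw [← Subgroup.coe_pow, ← hd₀, pow_orderOf_eq_one]; rfl⟩
    rw [hE, Subgroup.mem_bot] at h1
    have h2 : d₀ = 1 := Subtype.ext h1
    rw [h2, orderOf_one] at hd₀
    exact hr.one_lt.ne hd₀
  · rintro a ⟨ha, -⟩ b ⟨hb, -⟩
    exact hcomm a ha b hb
  · rintro a ⟨-, ha⟩
    exact ha

theorem exists_abelian_section {G : Type*} [Group G] [Finite G] (hs : Group.IsSolvable G)
    (N : Subgroup G) [N.Normal] (hN : N ≠ ⊤) :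
    ∃ (r : ℕ) (M : Subgroup G), r.Prime ∧ M.Normal ∧ N ≤ M ∧ N ≠ M ∧
      (∀ a ∈ M, ∀ b ∈ M, a * b * a⁻¹ * b⁻¹ ∈ N) ∧ ∃ k : ℕ, N.relIndex M = r ^ k := by
  haveI : Nontrivial (G ⧸ N) := by
    rw [← not_subsingleton_iff_nontrivial]
    intro h
    exact hN (QuotientGroup.subgroup_eq_top_of_subsingleton N h)
  have hsH : Group.IsSolvable (G ⧸ N) := inferInstance
  obtain ⟨r, E, hr, hEn, hE1, hEc, hEr⟩ := exists_normal_elementary hsH
  haveI : Fact r.Prime := ⟨hr⟩
  set π := QuotientGroup.mk' N with hπ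
  have hsurj : Function.Surjective π := QuotientGroup.mk'_surjective N
  have hker : N = (⊥ : Subgroup (G ⧸ N)).comap π := by
    rw [MonoidHom.comap_bot, QuotientGroup.ker_mk']
  refine ⟨r, E.comap π, hr, hEn.comap π, ?_, ?_, ?_, ?_⟩
  · intro x hx
    rw [Subgroup.mem_comap]
    have : π x = 1 := (QuotientGroup.eq_one_iff x).2 hx
    rw [this]; exact E.one_mem
  · intro h
    apply hE1
    have h1 : (⊥ : Subgroup (G ⧸ N)).comap π = E.comap π := by rw [← hker]; exact h
    exact (Subgroup.comap_injective hsurj h1).symm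
  · intro a ha b hb
    rw [← QuotientGroup.eq_one_iff]
    show π (a * b * a⁻¹ * b⁻¹) = 1
    rw [map_mul, map_mul, map_mul, map_inv, map_inv, hEc _ ha _ hb]
    group
  · have hp : IsPGroup r E := by
      intro g
      refine ⟨1, ?_⟩
      apply Subtype.ext
      rw [pow_one]
      exact hEr g g.2
    obtain ⟨k, hk⟩ := IsPGroup.iff_card.1 hp
    refine ⟨k, ?_⟩
    have h1 : N.relIndex (E.comap π) = ((⊥ : Subgroup (G ⧸ N)).comap π).relIndex (E.comap π) :=
      congrArg (fun X : Subgroup G => X.relIndex (E.comap π)) hker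
    rw [h1, Subgroup.relIndex_comap, Subgroup.map_comap_eq_self_of_surjective hsurj,
      Subgroup.relIndex_bot_left, hk]

end Cfsg.Agent.Lib.H19WinSect
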