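import Mathlib

set_option autoImplicit false

/-! PROJECT 4396 = FM (row S4396), piece `Hallp` (layer 1).  PURE MATHLIB group theory: a finite nilpotent normal subgroup `F` of `A` is `P × F₁`, `P` a `p`-group, `F₁` a `p'`-group, `F₁` normal in `A`. -/

namespace Cfsg.Agent.Lib.H24FMHallp

/-- an element of the normaliser of a Hall subgroup `K` killed by `#K` lies in `K` -/
theorem mem_of_pow_card {G : Type*} [Group G] [Finite G] (K : Subgroup G)
    (hc : (Nat.card K).Coprime K.index) (x : G) (hx : x ∈ Subgroup.normalizer (K : Set G))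
    (hp : x ^ Nat.card K = 1) : x ∈ K := by
  set N := Subgroup.normalizer (K : Set G) with hN
  have hnor : (K.subgroupOf N).Normal := Subgroup.normal_in_normalizer
  let y : N ⧸ K.subgroupOf N := QuotientGroup.mk ⟨x, hx⟩
  have h1 : y ^ Nat.card K = 1 := by
    have e : (⟨x, hx⟩ : N) ^ Nat.card K = 1 := Subtype.ext (by simpa using hp)
    show (QuotientGroup.mk ⟨x, hx⟩ : N ⧸ K.subgroupOf N) ^ Nat.card K = 1
    rw [← QuotientGroup.mk_pow, e]
    rfl
  have h2 : y ^ (K.subgroupOf N).index = 1 := by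
    rw [Subgroup.index_eq_card]
    exact pow_card_eq_one'
  have h3 : (K.subgroupOf N).index ∣ K.index := by
    have := Subgroup.relIndex_mul_index (Subgroup.le_normalizer : K ≤ N)
    exact ⟨_, this.symm⟩
  have h4 : orderOf y ∣ 1 := by
    have := Nat.dvd_gcd (orderOf_dvd_of_pow_eq_one h1) ((orderOf_dvd_of_pow_eq_one h2).trans h3)
    rwa [hc] at this
  have h5 : y = 1 := orderOf_eq_one_iff.1 (Nat.dvd_one.1 h4)
  have := (QuotientGroup.eq_one_iff _).1 h5
  exact this

/-- Hall subgroups of nilpotent groups are normal -/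
theorem normal_of_hall {G : Type*} [Group G] [Finite G] [Group.IsNilpotent G] (K : Subgroup G)
    (hc : (Nat.card K).Coprime K.index) : K.Normal := by
  rw [← Subgroup.normalizer_eq_top_iff]
  apply (normalizerCondition_iff_only_full_group_self_normalizing.1
    Group.normalizerCondition_of_isNilpotent)
  apply le_antisymm _ Subgroup.le_normalizer
  intro g hg
  have key : ∀ g : G, g ∈ Subgroup.normalizer
      ((Subgroup.normalizer (K : Set G) : Subgroup G) : Set G) → ∀ k ∈ K, g * k * g⁻¹ ∈ K := by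
    intro g hg k hk
    apply mem_of_pow_card K hc
    · exact (Subgroup.mem_normalizer_iff.1 hg k).1 (Subgroup.le_normalizer hk)
    · rw [conj_pow]
      have : k ^ Nat.card K = 1 := by
        have h0 : (⟨k, hk⟩ : K) ^ Nat.card K = 1 := pow_card_eq_one'
        exact congrArg Subtype.val h0
      rw [this]
      group
  rw [Subgroup.mem_normalizer_iff]
  intro k
  refine ⟨key g hg k, fun h => ?_⟩
  have := key g⁻¹ (inv_mem hg) _ h
  simpa [mul_assoc] using this

theorem exists_hallp {A : Type*} [Group A] [Finite A] (F : Subgroup A) [F.Normal]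
    (hnil : Group.IsNilpotent ↥F) (p : ℕ) [Fact p.Prime] :
    ∃ P F₁ : Subgroup A, P ≤ F ∧ F₁ ≤ F ∧ IsPGroup p ↥P ∧ ¬ p ∣ Nat.card F₁ ∧
      (∀ a : A, ∀ f ∈ F₁, a * f * a⁻¹ ∈ F₁) ∧ (∀ x ∈ P, ∀ y ∈ F₁, x * y = y * x) ∧
      ∀ f ∈ F, ∃ x ∈ P, ∃ y ∈ F₁, f = x * y := by
  classical
  obtain ⟨S⟩ : Nonempty (Sylow p ↥F) := inferInstance
  have hSn : (S : Subgroup ↥F).Normal :=
    Sylow.normal_of_normalizerCondition Group.normalizerCondition_of_isNilpotent S
  have hSc := S.card_coprime_index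
  obtain ⟨K, hK⟩ := Subgroup.exists_right_complement'_of_coprime hSc
  have hKi : K.index = Nat.card (S : Subgroup ↥F) := hK.index_eq_card
  have hKc : Nat.card K = (S : Subgroup ↥F).index := hK.symm.index_eq_card.symm
  have hKcop : (Nat.card K).Coprime K.index := by
    rw [hKi, hKc]
    exact hSc.symm
  have hKn : K.Normal := normal_of_hall K hKcop
  have hpK : ¬ p ∣ Nat.card K := by
    rw [hKc]
    exact S.not_dvd_index
  refine ⟨(S : Subgroup ↥F).map F.subtype, K.map F.subtype, ?_, ?_, ?_, ?_, ?_, ?_, ?_⟩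
  · rintro _ ⟨y, -, rfl⟩
    exact y.2
  · rintro _ ⟨y, -, rfl⟩
    exact y.2
  · exact S.2.map F.subtype
  · rwa [Subgroup.card_map_of_injective F.subtype_injective]
  · rintro a _ ⟨y, hy, rfl⟩
    have hmem : a * (y : A) * a⁻¹ ∈ F := (inferInstance : F.Normal).conj_mem _ y.2 a
    refine ⟨⟨_, hmem⟩, ?_, rfl⟩
    apply mem_of_pow_card K hKcop
    · rw [Subgroup.normalizer_eq_top]
      trivial
    · apply Subtype.ext
      have h1 : y ^ Nat.card K = 1 := by
        have h0 : (⟨y, hy⟩ : K) ^ Nat.card K = 1 := pow_card_eq_one'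
        exact congrArg Subtype.val h0
      have h2 : (y : A) ^ Nat.card K = 1 := congrArg Subtype.val h1
      show (a * (y : A) * a⁻¹) ^ Nat.card K = 1
      rw [conj_pow, h2]
      group
  · rintro _ ⟨x, hx, rfl⟩ _ ⟨y, hy, rfl⟩
    have := Subgroup.commute_of_normal_of_disjoint _ _ hSn hKn hK.disjoint x y hx hy
    exact congrArg Subtype.val this.eq
  · intro f hf
    obtain ⟨⟨s, k⟩, hsk⟩ := (Subgroup.isComplement'_def.1 hK).2 ⟨f, hf⟩
    refine ⟨s.1, ⟨s.1, s.2, rfl⟩, k.1, ⟨k.1, k.2, rfl⟩, ?_⟩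
    exact (congrArg Subtype.val hsk).symm

end Cfsg.Agent.Lib.H24FMHallp
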