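import Mathlib
import Cfsg.Prelude.Def_Solvable
import Cfsg.Agent.Lib.H24FMDefs
import Cfsg.Agent.Lib.H24FMHallp
import Cfsg.Agent.Lib.H24FMFixP
import Cfsg.Agent.Lib.H24FMMain

set_option autoImplicit false

/-! PROJECT 4396 = FM (row S4396): reduction to the coprime case and the final statement (helper24). -/

namespace Cfsg.Agent.Lib.H24FMTop

open Cfsg.Agent.Lib.H24FMDefs Cfsg.Agent.Lib.H24FMHallp Cfsg.Agent.Lib.H24FMFixP
open scoped Pointwise

theorem fpf {A : Type*} [Group A] (Fk Hc : Subgroup A) (hHc : Cfsg.IsFrobeniusComplement Hc)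
    (hker : Cfsg.frobeniusKernel Hc = (Fk : Set A)) :
    ∀ h ∈ Hc, h ≠ 1 → ∀ f ∈ Fk, h * f = f * h → f = 1 := by
  intro h hh h1 f hf hc
  by_contra hf1
  have hf' : f ∈ Cfsg.frobeniusKernel Hc := by rw [hker]; exact hf
  rcases hf' with h0 | h0
  · exact hf1 h0
  · have hfH : f ∉ Hc := by
      have := h0 1
      simpa using this
    have hbot := hHc.2.2 f hfH
    have hmem : h ∈ Hc ⊓ (MulAut.conj f • Hc) := by
      refine Subgroup.mem_inf.mpr ⟨hh, ?_⟩
      rw [Subgroup.mem_pointwise_smul_iff_inv_smul_mem]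
      have : (MulAut.conj f)⁻¹ • h = h := by
        rw [MulAut.smul_def, ← map_inv, MulAut.conj_apply, inv_inv]
        calc f⁻¹ * h * f = f⁻¹ * (h * f) := by group
          _ = f⁻¹ * (f * h) := by rw [hc]
          _ = h := by group
      rw [this]; exact hh
    rw [hbot, Subgroup.mem_bot] at hmem
    exact h1 hmem

variable {k V : Type*} [Field k] [AddCommGroup V] [Module k V] {A : Type*} [Group A] [Finite A]

theorem exists_pprime (ρ : Representation k A V) (Fk : Subgroup A) [Fk.Normal]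
    (hnil : Group.IsNilpotent ↥Fk) (hCF : ∀ v : V, (∀ f ∈ Fk, ρ f v = v) → v = 0) :
    ∃ F₁ : Subgroup A, F₁ ≤ Fk ∧ (∀ a : A, ∀ f ∈ F₁, a * f * a⁻¹ ∈ F₁) ∧ Group.IsNilpotent ↥F₁ ∧
      (Nat.card F₁ : k) ≠ 0 ∧ ∀ v : V, (∀ f ∈ F₁, ρ f v = v) → v = 0 := by
  by_cases hc : (Nat.card Fk : k) ≠ 0
  · exact ⟨Fk, le_rfl, fun a f hf => ‹Fk.Normal›.conj_mem f hf a, hnil, hc, hCF⟩
  · push Not at hc
    obtain ⟨p, hp⟩ := CharP.exists k
    have hp0 : p ≠ 0 := by
      rintro rfl
      have := (CharP.cast_eq_zero_iff k 0 (Nat.card Fk)).mp hc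
      rw [zero_dvd_iff] at this
      exact Nat.card_pos.ne' this
    have hpp : p.Prime := (CharP.char_is_prime_or_zero k p).resolve_right hp0
    have : Fact p.Prime := ⟨hpp⟩
    obtain ⟨P, F₁, hPF, hF₁, hP, hnd, hn, hcomm, hprod⟩ := exists_hallp Fk hnil p
    refine ⟨F₁, hF₁, hn, ?_, ?_, ?_⟩
    · have h1 : Group.IsNilpotent ↥(F₁.subgroupOf Fk) := inferInstance
      exact Group.nilpotent_of_mulEquiv (Subgroup.subgroupOfEquivOfLe hF₁)
    · intro h0
      exact hnd ((CharP.cast_eq_zero_iff k p _).mp h0)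
    · let X : Submodule k V :=
        { carrier := {v | ∀ f ∈ F₁, ρ f v = v}
          add_mem' := by
            intro a b ha hb f hf
            rw [map_add, ha f hf, hb f hf]
          zero_mem' := by
            intro f _
            exact map_zero _
          smul_mem' := by
            intro c a ha f hf
            rw [map_smul, ha f hf] }
      have hXbot : X = ⊥ := by
        by_contra hX
        obtain ⟨v, hvX, hv0, hvP⟩ := exists_fixed p ρ P hP X hX (by
          intro x hx v hv f hf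
          have h1 : ρ f (ρ x v) = ρ x (ρ f v) := by
            rw [← Module.End.mul_apply, ← Module.End.mul_apply, ← map_mul, ← map_mul, hcomm x hx f hf]
          rw [h1, hv f hf])
        apply hv0
        apply hCF
        intro f hf
        obtain ⟨x, hx, y, hy, rfl⟩ := hprod f hf
        rw [map_mul, Module.End.mul_apply, hvX y hy, hvP x hx]
      intro v hv
      have : v ∈ X := hv
      rw [hXbot, Submodule.mem_bot] at this
      exact this

/-- the row S4396 in terms of `HFree`. -/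
theorem top [FiniteDimensional k V] (ρ : Representation k A V) (Fk Hc : Subgroup A) [Fk.Normal]
    (hHc : Cfsg.IsFrobeniusComplement Hc) (hker : Cfsg.frobeniusKernel Hc = (Fk : Set A))
    (hnil : Group.IsNilpotent ↥Fk) (hCF : ∀ v : V, (∀ f ∈ Fk, ρ f v = v) → v = 0) :
    HFree (ρ.comp Hc.subtype) ⊤ := by
  obtain ⟨F₁, hF₁, hn, hnil₁, hcard, hCF₁⟩ := exists_pprime ρ Fk hnil hCF
  exact H24FMMain.main ρ F₁ Hc hnil₁ hcard (fun h _ f hf => hn h f hf)
    (fun h hh h1 f hf => fpf Fk Hc hHc hker h hh h1 f (hF₁ hf)) hCF₁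

end Cfsg.Agent.Lib.H24FMTop
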