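import Mathlib
import Cfsg.Agent.Lib.H24FMDefs

set_option autoImplicit false

/-! PROJECT 4414 = TN (row S4414): fixed points of a Sylow 2-subgroup on an `F_2`-module of `P (X Y)`.  Vocabulary. -/

namespace Cfsg.Agent.Lib.H24TNDefs

open Cfsg.Agent.Lib.H24FMDefs

/-- the conjugate subgroup `g D g⁻¹` -/
def cj {S : Type*} [Group S] (g : S) (D : Subgroup S) : Subgroup S :=
  D.map (MulAut.conj g).toMonoidHom

theorem mem_cj {S : Type*} [Group S] (g : S) (D : Subgroup S) (x : S) :
    x ∈ cj g D ↔ g⁻¹ * x * g ∈ D := by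
  unfold cj
  constructor
  · rintro ⟨d, hd, rfl⟩
    have : g⁻¹ * ((MulAut.conj g).toMonoidHom d) * g = d := by
      simp [MulAut.conj_apply, mul_assoc]
    rw [this]; exact hd
  · intro h
    exact ⟨g⁻¹ * x * g, h, by simp [MulAut.conj_apply, mul_assoc]⟩

/-- A system of imprimitivity: orthogonal idempotents `e i` with sum `1`, permuted by the group through the action `a`. -/
structure Sys {S E I : Type*} [Group S] [AddCommGroup E] [Module (ZMod 2) E]
    (ρ : Representation (ZMod 2) S E) (a : S → I → I) (e : I → Module.End (ZMod 2) E) : Prop where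
  one : ∀ i, a 1 i = i
  mul : ∀ g h i, a (g * h) i = a g (a h i)
  idem : ∀ i, e i * e i = e i
  orth : ∀ i j, i ≠ j → e i * e j = 0
  sum : ∑ᶠ i, e i = 1
  conj : ∀ g i, ρ g * e i * ρ g⁻¹ = e (a g i)

/-- The situation of the row: `P` normal elementary abelian of order `p` or `p²`, `X` a 2-group, `y` of order `q`,
`#(X ⊔ ⟨y⟩) = #X q`, the elements of order `q` act fixed point freely on `P`, and `C_E(P) = 0`. -/
structure Ctx {S E : Type*} [Group S] [AddCommGroup E] [Module (ZMod 2) E]
    (ρ : Representation (ZMod 2) S E) (P X : Subgroup S) (y : S) (p q : ℕ) : Prop where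
  pp : p.Prime
  p2 : p ≠ 2
  qp : q.Prime
  q2 : q ≠ 2
  Pn : P.Normal
  Pcomm : ∀ a ∈ P, ∀ b ∈ P, a * b = b * a
  Pexp : ∀ a ∈ P, a ^ p = 1
  Pcard : Nat.card P = p ∨ Nat.card P = p ^ 2
  X2 : IsPGroup 2 X
  yq : orderOf y = q
  Kcard : Nat.card ↥(X ⊔ Subgroup.zpowers y) = Nat.card X * q
  fpf : ∀ g : S, orderOf g = q → ∀ z ∈ P, g * z = z * g → z = 1
  CP : ∀ v : E, (∀ z ∈ P, ρ z v = v) → v = 0

open Classical in
/-- the idempotent of the subgroup `D`: the averaging operator if `D` is a maximal subgroup of `P`, and `0` otherwise -/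
noncomputable def eD {S E : Type*} [Group S] [AddCommGroup E] [Module (ZMod 2) E]
    (ρ : Representation (ZMod 2) S E) (P : Subgroup S) (p : ℕ) (D : Subgroup S) :
    Module.End (ZMod 2) E :=
  if D ≤ P ∧ Nat.card D * p = Nat.card P then avg ρ D else 0

end Cfsg.Agent.Lib.H24TNDefs
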