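import Mathlib
import Cfsg.Agent.Lib.H24FMDefs
import Cfsg.Agent.Lib.H24TNDefs
import Cfsg.Agent.Lib.H24FMAvg

set_option autoImplicit false

/-! PROJECT 4414 = TN (row S4414), piece `AvgC`.  Keep file name, namespace, theorem names and statements; extra helper lemmas are fine.

avg ρ D = (Nat.card D : k)⁻¹ • ∑ᶠ d : D, ρ d (H24FMDefs); library H24FMAvg (LANDED).
avg_cj: Nat.card (cj g D) = Nat.card D (`Subgroup.card_map_of_injective`-like / an Equiv D ≃ cj g D, d ↦ g d g⁻¹); ρ g * ρ d * ρ g⁻¹ = ρ (g d g⁻¹); reindex the sum (`finsum_eq_sum_of_fintype`, `Fintype.sum_equiv`).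
pred_cj: P normal.  card_ne: Nat.card D divides p or p², p odd, so Nat.card D is odd; (n : ZMod 2) ≠ 0 for odd n (`ZMod.natCast_eq_zero_iff`/`ZMod.natCast_self_eq_zero`).
range_avg: avg ρ D v = v ↔ ∀ d ∈ D, ρ d v = v (→: `H24FMAvg.rho_mul_avg`; ←: unfold, all terms equal v, card_ne). -/

namespace Cfsg.Agent.Lib.H24TNAvgC

open Cfsg.Agent.Lib.H24FMDefs Cfsg.Agent.Lib.H24TNDefs

/-- the conjugation equivalence `D ≃ g D g⁻¹` -/
noncomputable def cjEquiv {S : Type*} [Group S] (g : S) (D : Subgroup S) : D ≃ cj g D :=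
  (D.equivMapOfInjective (MulAut.conj g).toMonoidHom (MulAut.conj g).injective).toEquiv

theorem cjEquiv_coe {S : Type*} [Group S] (g : S) (D : Subgroup S) (d : D) :
    ((cjEquiv g D d : cj g D) : S) = g * d * g⁻¹ := rfl

theorem card_cj {S : Type*} [Group S] (g : S) (D : Subgroup S) : Nat.card (cj g D) = Nat.card D :=
  (Nat.card_congr (cjEquiv g D)).symm

theorem avg_cj {k S E : Type*} [Field k] [Group S] [Finite S] [AddCommGroup E] [Module k E]
    (ρ : Representation k S E) (g : S) (D : Subgroup S) :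
    ρ g * avg ρ D * ρ g⁻¹ = avg ρ (cj g D) := by
  classical
  have := Fintype.ofFinite ↥D
  have := Fintype.ofFinite ↥(cj g D)
  unfold avg
  rw [card_cj, finsum_eq_sum_of_fintype, finsum_eq_sum_of_fintype, mul_smul_comm, smul_mul_assoc,
    Finset.mul_sum, Finset.sum_mul]
  congr 1
  apply Fintype.sum_equiv (cjEquiv g D)
  intro d
  rw [cjEquiv_coe, map_mul, map_mul]

theorem pred_cj {S : Type*} [Group S] (P : Subgroup S) (hPN : P.Normal) (p : ℕ) (g : S)
    (D : Subgroup S) :
    (cj g D ≤ P ∧ Nat.card (cj g D) * p = Nat.card P) ↔ (D ≤ P ∧ Nat.card D * p = Nat.card P) := by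
  rw [card_cj]
  apply and_congr_left
  intro _
  constructor
  · intro h d hd
    have h1 : g * d * g⁻¹ ∈ cj g D := by
      rw [mem_cj]
      have : g⁻¹ * (g * d * g⁻¹) * g = d := by group
      rw [this]; exact hd
    have h2 := hPN.conj_mem _ (h h1) g⁻¹
    have h3 : g⁻¹ * (g * d * g⁻¹) * g⁻¹⁻¹ = d := by group
    rwa [h3] at h2
  · intro h x hx
    rw [mem_cj] at hx
    have h2 := hPN.conj_mem _ (h hx) g
    have h3 : g * (g⁻¹ * x * g) * g⁻¹ = x := by group
    rwa [h3] at h2

theorem card_ne {S : Type*} [Group S] (P D : Subgroup S) (p : ℕ) (hp : p.Prime) (hp2 : p ≠ 2)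
    (hcard : Nat.card P = p ∨ Nat.card P = p ^ 2) (hDc : Nat.card D * p = Nat.card P) :
    (Nat.card D : ZMod 2) ≠ 0 := by
  have hodd : Odd p := hp.odd_of_ne_two hp2
  have hD : Odd (Nat.card D) := by
    rcases hcard with h | h
    · rw [h] at hDc
      have : Nat.card D = 1 := by
        have h1 : Nat.card D * p = 1 * p := by rw [hDc, one_mul]
        exact Nat.eq_of_mul_eq_mul_right hp.pos h1
      rw [this]; exact odd_one
    · rw [h] at hDc
      have : Nat.card D = p := by
        have h1 : Nat.card D * p = p * p := by rw [hDc, sq]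
        exact Nat.eq_of_mul_eq_mul_right hp.pos h1
      rw [this]; exact hodd
  intro h0
  rw [ZMod.natCast_eq_zero_iff] at h0
  exact (Nat.not_even_iff_odd.mpr hD) (even_iff_two_dvd.mpr h0)

theorem avg_fix_iff {S E : Type*} [Group S] [Finite S] [AddCommGroup E] [Module (ZMod 2) E]
    (ρ : Representation (ZMod 2) S E) (D : Subgroup S) (hD : (Nat.card D : ZMod 2) ≠ 0) (v : E) :
    avg ρ D v = v ↔ ∀ d ∈ D, ρ d v = v := by
  classical
  constructor
  · intro h d hd
    have h1 := Cfsg.Agent.Lib.H24FMAvg.rho_mul_avg ρ hd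
    calc ρ d v = ρ d (avg ρ D v) := by rw [h]
      _ = (ρ d * avg ρ D) v := rfl
      _ = v := by rw [h1, h]
  · intro h
    have := Fintype.ofFinite ↥D
    unfold avg
    rw [finsum_eq_sum_of_fintype, LinearMap.smul_apply, LinearMap.sum_apply]
    rw [Finset.sum_congr rfl (fun (d : ↥D) _ => h (d : S) d.2)]
    rw [Finset.sum_const, Finset.card_univ, ← Nat.card_eq_fintype_card,
      ← Nat.cast_smul_eq_nsmul (ZMod 2), smul_smul, inv_mul_cancel₀ hD, one_smul]

end Cfsg.Agent.Lib.H24TNAvgC
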