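import Mathlib
import Cfsg.Agent.Lib.H24FMDefs
import Cfsg.Agent.Lib.H24TNDefs
import Cfsg.Agent.Lib.H24FMAvg

set_option autoImplicit false

/-! PROJECT 4414 = TN (row S4414), piece `AvgO`.

avg_orth.  The operator `T = e_D e_D'` satisfies `ρ z T = T` for `z ∈ D` and (as `P` is abelian) for `z ∈ D'`, hence for
all `z ∈ D ⊔ D' = P` (two distinct subgroups of index `p`), so the image of `T` lies in `C_E(P) = 0`. -/

namespace Cfsg.Agent.Lib.H24TNAvgO

open Cfsg.Agent.Lib.H24FMDefs Cfsg.Agent.Lib.H24TNDefs Cfsg.Agent.Lib.H24FMAvg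

theorem sup_eq {S : Type*} [Group S] [Finite S] {P D D' : Subgroup S} {p : ℕ} (hp : p.Prime)
    (hD : D ≤ P) (hDc : Nat.card D * p = Nat.card P) (hD' : D' ≤ P)
    (hDc' : Nat.card D' * p = Nat.card P) (hne : D ≠ D') : D ⊔ D' = P := by
  have hle : D ⊔ D' ≤ P := sup_le hD hD'
  obtain ⟨m, hm⟩ := Subgroup.card_dvd_of_le (le_sup_left : D ≤ D ⊔ D')
  obtain ⟨k, hk⟩ := Subgroup.card_dvd_of_le hle
  have hDpos : 0 < Nat.card D := Nat.card_pos
  have hpmk : p = m * k := by
    have : Nat.card D * p = Nat.card D * (m * k) := by rw [hDc, hk, hm, mul_assoc]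
    exact Nat.eq_of_mul_eq_mul_left hDpos this
  rcases (Nat.dvd_prime hp).1 ⟨k, hpmk⟩ with h1 | h1
  · exfalso
    have e1 : D = D ⊔ D' := Subgroup.eq_of_le_of_card_ge le_sup_left (by rw [hm, h1, mul_one])
    have e2 : D' ≤ D := by
      have : D' ≤ D ⊔ D' := le_sup_right
      rwa [← e1] at this
    have e3 : D' = D := Subgroup.eq_of_le_of_card_ge e2 (by
      have : Nat.card D * p = Nat.card D' * p := by rw [hDc, hDc']
      exact (Nat.eq_of_mul_eq_mul_right hp.pos this).le)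
    exact hne e3.symm
  · exact Subgroup.eq_of_le_of_card_ge hle (by rw [hm, h1, hDc])

theorem avg_orth {S E : Type*} [Group S] [Finite S] [AddCommGroup E] [Module (ZMod 2) E]
    {ρ : Representation (ZMod 2) S E} {P X : Subgroup S} {y : S} {p q : ℕ} (hc : Ctx ρ P X y p q)
    {D D' : Subgroup S} (hD : D ≤ P) (hDc : Nat.card D * p = Nat.card P) (hD' : D' ≤ P)
    (hDc' : Nat.card D' * p = Nat.card P) (hne : D ≠ D') : avg ρ D * avg ρ D' = 0 := by
  classical
  let St : Subgroup S :=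
    { carrier := {z | ρ z * (avg ρ D * avg ρ D') = avg ρ D * avg ρ D'}
      one_mem' := by simp
      mul_mem' := fun {a b} ha hb => by
        simp only [Set.mem_setOf_eq] at *
        rw [map_mul, mul_assoc, hb, ha]
      inv_mem' := fun {a} ha => by
        simp only [Set.mem_setOf_eq] at *
        calc ρ a⁻¹ * (avg ρ D * avg ρ D') = ρ a⁻¹ * (ρ a * (avg ρ D * avg ρ D')) := by rw [ha]
          _ = avg ρ D * avg ρ D' := by rw [← mul_assoc, rep_inv_mul, one_mul] }
  have hDS : D ≤ St := fun d hd => by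
    show ρ d * (avg ρ D * avg ρ D') = _
    rw [← mul_assoc, rho_mul_avg ρ hd]
  have hD'S : D' ≤ St := fun d hd => by
    show ρ d * (avg ρ D * avg ρ D') = _
    have hconj : ρ d * avg ρ D * ρ d⁻¹ = avg ρ D := by
      refine avg_conj ρ d (fun z hz => ?_) (fun z hz => ?_)
      · have := hc.Pcomm d (hD' hd) z (hD hz)
        rw [this, mul_assoc, mul_inv_cancel, mul_one]; exact hz
      · have := hc.Pcomm d (hD' hd) z (hD hz)
        rw [mul_assoc, ← this, ← mul_assoc, inv_mul_cancel, one_mul]; exact hz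
    have hcomm : ρ d * avg ρ D = avg ρ D * ρ d := by
      calc ρ d * avg ρ D = ρ d * avg ρ D * (ρ d⁻¹ * ρ d) := by rw [rep_inv_mul, mul_one]
        _ = (ρ d * avg ρ D * ρ d⁻¹) * ρ d := by simp only [mul_assoc]
        _ = avg ρ D * ρ d := by rw [hconj]
    rw [← mul_assoc, hcomm, mul_assoc, rho_mul_avg ρ hd]
  have hsup : D ⊔ D' = P := sup_eq hc.pp hD hDc hD' hDc' hne
  have hPS : P ≤ St := hsup ▸ sup_le hDS hD'S
  ext v
  apply hc.CP
  intro z hz
  have h1 : ρ z * (avg ρ D * avg ρ D') = avg ρ D * avg ρ D' := hPS hz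
  calc ρ z ((avg ρ D * avg ρ D') v) = (ρ z * (avg ρ D * avg ρ D')) v := rfl
    _ = (avg ρ D * avg ρ D') v := by rw [h1]

end Cfsg.Agent.Lib.H24TNAvgO
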