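import Mathlib
import Cfsg.Agent.Lib.H24FMDefs
import Cfsg.Agent.Lib.H24TNDefs
import Cfsg.Agent.Lib.H24FMAvg

set_option autoImplicit false

/-! PROJECT 4414 = TN (row S4414), piece `AvgS`: the averaging idempotents of the maximal subgroups of `P` sum to `1`. -/

namespace Cfsg.Agent.Lib.H24TNAvgS

open Cfsg.Agent.Lib.H24FMDefs Cfsg.Agent.Lib.H24TNDefs

theorem sum_comm_count {S M : Type*} [Group S] [Fintype S] [AddCommMonoid M]
    [∀ (z : S) (D : Subgroup S), Decidable (z ∈ D)] (𝒟 : Finset (Subgroup S)) (f : S → M) :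
    ∑ D ∈ 𝒟, ∑ z : S, (if z ∈ D then f z else 0)
      = ∑ z : S, (𝒟.filter (fun D => z ∈ D)).card • f z := by
  rw [Finset.sum_comm]
  refine Finset.sum_congr rfl fun z _ => ?_
  rw [← Finset.sum_filter, Finset.sum_const]

theorem avg_sum {S E : Type*} [Group S] [Finite S] [AddCommGroup E] [Module (ZMod 2) E]
    {ρ : Representation (ZMod 2) S E} {P X : Subgroup S} {y : S} {p q : ℕ} (hc : Ctx ρ P X y p q) :
    ∑ᶠ D : Subgroup S, eD ρ P p D = 1 := by
  classical
  haveI := Fintype.ofFinite S
  haveI := Fintype.ofFinite (Subgroup S)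
  have hpp := hc.pp
  have hpodd : Odd p := hc.pp.odd_of_ne_two hc.p2
  set 𝒟 : Finset (Subgroup S) :=
    Finset.univ.filter (fun D => D ≤ P ∧ Nat.card D * p = Nat.card P) with h𝒟
  have hmem𝒟 : ∀ D, D ∈ 𝒟 ↔ (D ≤ P ∧ Nat.card D * p = Nat.card P) := by
    intro D; simp [h𝒟]
  have hPodd : Odd (Nat.card P) := by
    rcases hc.Pcard with h | h
    · rw [h]; exact hpodd
    · rw [h]; exact hpodd.pow
  have havg : ∀ Z : Subgroup S, Odd (Nat.card Z) →
      avg ρ Z = ∑ z : S, if z ∈ Z then ρ z else 0 := by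
    intro Z hZ
    unfold avg
    rw [finsum_eq_sum_of_fintype, (ZMod.natCast_eq_one_iff_odd).mpr hZ, inv_one, one_smul,
      ← Finset.sum_filter]
    exact (Finset.sum_subtype _ (by simp) _).symm
  have h1 : ∑ᶠ D : Subgroup S, eD ρ P p D = ∑ D ∈ 𝒟, avg ρ D := by
    rw [finsum_eq_sum_of_fintype, h𝒟, Finset.sum_filter]
    refine Finset.sum_congr rfl fun D _ => ?_
    by_cases h : D ≤ P ∧ Nat.card D * p = Nat.card P
    · simp only [eD, if_pos h]
    · simp only [eD, if_neg h]
  rw [h1]
  rcases hc.Pcard with hP | hP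
  · have h2 : 𝒟 = {⊥} := by
      ext D
      rw [hmem𝒟, Finset.mem_singleton, hP]
      constructor
      · rintro ⟨_, h⟩
        have : Nat.card D = 1 := by
          have h3 : Nat.card D * p = 1 * p := by rw [h, one_mul]
          exact Nat.eq_of_mul_eq_mul_right hpp.pos h3
        exact Subgroup.card_eq_one.mp this
      · rintro rfl
        exact ⟨bot_le, by simp⟩
    rw [h2, Finset.sum_singleton, H24FMAvg.avg_bot]
  · have hDcard : ∀ D ∈ 𝒟, Nat.card D = p := by
      intro D hD
      have h := ((hmem𝒟 D).mp hD).2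
      rw [hP, pow_two] at h
      exact Nat.eq_of_mul_eq_mul_right hpp.pos h
    -- the counting function
    let c : S → ℕ := fun z => (𝒟.filter (fun D => z ∈ D)).card
    have hc0 : ∀ z, z ∉ P → c z = 0 := by
      intro z hz
      simp only [c, Finset.card_eq_zero, Finset.filter_eq_empty_iff]
      intro D hD hzD
      exact hz (((hmem𝒟 D).mp hD).1 hzD)
    have hc1 : ∀ z ∈ P, z ≠ 1 → c z = 1 := by
      intro z hz hz1
      have ho : orderOf z = p := by
        haveI : Fact p.Prime := ⟨hpp⟩
        exact orderOf_eq_prime (hc.Pexp z hz) hz1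
      have hzc : Nat.card (Subgroup.zpowers z) = p := by rw [Nat.card_zpowers, ho]
      have : 𝒟.filter (fun D => z ∈ D) = {Subgroup.zpowers z} := by
        ext D
        rw [Finset.mem_filter, Finset.mem_singleton]
        constructor
        · rintro ⟨hD, hzD⟩
          have hle : Subgroup.zpowers z ≤ D := by rwa [Subgroup.zpowers_le]
          exact (Subgroup.eq_of_le_of_card_ge hle (by rw [hzc, hDcard D hD])).symm
        · rintro rfl
          refine ⟨(hmem𝒟 _).mpr ⟨by rwa [Subgroup.zpowers_le], ?_⟩, Subgroup.mem_zpowers z⟩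
          rw [hzc, hP, pow_two]
      simp only [c, this, Finset.card_singleton]
    have hcone : c 1 = 𝒟.card := by
      simp only [c]
      congr 1
      ext D
      simp [Subgroup.one_mem]
    -- the number of maximal subgroups
    have hcount : 𝒟.card = p + 1 := by
      have e1 : ∑ D ∈ 𝒟, ∑ z : S, (if z ∈ D then (1 : ℕ) else 0) = ∑ z : S, c z • (1 : ℕ) :=
        sum_comm_count 𝒟 (fun _ : S => (1 : ℕ))
      have e2 : ∑ D ∈ 𝒟, ∑ z : S, (if z ∈ D then (1 : ℕ) else 0) = 𝒟.card * p := by
        rw [Finset.sum_congr rfl (g := fun _ => p), Finset.sum_const, smul_eq_mul]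
        intro D hD
        rw [← hDcard D hD, ← Finset.sum_filter, Finset.sum_const, smul_eq_mul, mul_one,
          Nat.card_eq_fintype_card, Fintype.card_subtype]
      have e3 : ∑ z : S, c z • (1 : ℕ) + 1 = p ^ 2 + 𝒟.card := by
        have e4 : ∀ z : S, c z • (1 : ℕ) + (if z = 1 then 1 else 0)
            = (if z ∈ P then 1 else 0) + (if z = 1 then 𝒟.card else 0) := by
          intro z
          by_cases hz1 : z = 1
          · subst hz1
            simp [hcone, P.one_mem, add_comm]
          · by_cases hz : z ∈ P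
            · simp [hz1, hz, hc1 z hz hz1]
            · simp [hz1, hz, hc0 z hz]
        have e5 := Finset.sum_congr (s₁ := (Finset.univ : Finset S)) rfl (fun z _ => e4 z)
        rw [Finset.sum_add_distrib, Finset.sum_add_distrib] at e5
        simp only [Finset.sum_ite_eq', Finset.mem_univ, if_true] at e5
        rw [e5, ← hP, ← Finset.sum_filter, Finset.sum_const, smul_eq_mul, mul_one,
          Nat.card_eq_fintype_card, Fintype.card_subtype]
      rw [e2] at e1
      rw [← e1] at e3
      obtain ⟨k, rfl⟩ : ∃ k, p = k + 1 := ⟨p - 1, by have := hpp.pos; omega⟩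
      have hk : 0 < k := by have := hpp.two_le; omega
      have e6 : 𝒟.card * k = (k + 2) * k := by nlinarith
      have := Nat.eq_of_mul_eq_mul_right hk e6
      omega
    have e7 : ∑ D ∈ 𝒟, avg ρ D = ∑ D ∈ 𝒟, ∑ z : S, (if z ∈ D then ρ z else 0) := by
      refine Finset.sum_congr rfl fun D hD => havg D ?_
      rw [hDcard D hD]; exact hpodd
    have e9 : ∑ D ∈ 𝒟, ∑ z : S, (if z ∈ D then ρ z else 0) = ∑ z : S, c z • ρ z :=
      sum_comm_count 𝒟 (fun z => ρ z)
    rw [e7, e9]
    have e8 : ∀ z : S, c z • ρ z = (if z ∈ P then ρ z else 0) + (if z = 1 then 1 else 0) := by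
      intro z
      by_cases hz1 : z = 1
      · subst hz1
        rw [hcone, hcount, if_pos P.one_mem, if_pos rfl, map_one]
        obtain ⟨m, hm⟩ := hpodd
        have : p + 1 = (m + 1) + (m + 1) := by omega
        rw [this, add_smul, ZModModule.add_self, ZModModule.add_self]
      · by_cases hz : z ∈ P
        · simp [hz1, hz, hc1 z hz hz1]
        · simp [hz1, hz, hc0 z hz]
    rw [Finset.sum_congr rfl (fun z _ => e8 z), Finset.sum_add_distrib, ← havg P hPodd,
      H24FMAvg.avg_eq_zero ρ hc.CP]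
    simp

end Cfsg.Agent.Lib.H24TNAvgS
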