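import Mathlib
import Cfsg.Agent.Lib.H24FMDefs
import Cfsg.Agent.Lib.H24TNDefs


set_option autoImplicit false

/-! PROJECT 4414 = TN (row S4414), piece `Lin`.  Keep file name, namespace, theorem names and statements; extra helper lemmas are fine.

PURE linear algebra over ZMod 2.  Let Fx be the submodule {v | ∀ x ∈ X, ρ x v = v}; Nat.card Fx = 2 ^ finrank (`Module.card_eq_pow_finrank`/`card_eq_pow_finrank`, ZMod.card).
three: (α,β,γ) ↦ α w₁ + β w₂ + γ w₃ from (ZMod 2)³ (or Fin 2 × Fin 2 × Fin 2 / Bool³) to Fx is injective: apply f₁, f₂, f₃.  So 8 ≤ card (`Nat.card_le_card_of_injective`).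
two_or: w₁, w₂ give 4 distinct elements 0, w₁, w₂, w₁ + w₂ of Fx, so 4 ≤ 2 ^ d, d ≥ 2; if d ≥ 3 then 8 ≤ card; if d = 2 the card is 4 and the 4 distinct elements exhaust Fx (`Finset.eq_univ_of_card`-style / injective map from a 4 element type into a 4 element type is onto). -/

namespace Cfsg.Agent.Lib.H24TNLin

open Cfsg.Agent.Lib.H24FMDefs Cfsg.Agent.Lib.H24TNDefs

theorem z2 (c : ZMod 2) : c = 0 ∨ c = 1 := by
  revert c; decide

theorem eq_of_smul {E : Type*} [AddCommGroup E] [Module (ZMod 2) E] {u : E} (hu : u ≠ 0)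
    {c d : ZMod 2} (h : c • u = d • u) : c = d := by
  rcases z2 c with rfl | rfl <;> rcases z2 d with rfl | rfl
  · rfl
  · rw [zero_smul, one_smul] at h; exact absurd h.symm hu
  · rw [zero_smul, one_smul] at h; exact absurd h hu
  · rfl

theorem three {S E : Type*} [Group S] [AddCommGroup E] [Module (ZMod 2) E] [Finite E]
    (ρ : Representation (ZMod 2) S E) (X : Subgroup S) (f₁ f₂ f₃ : Module.End (ZMod 2) E)
    (w₁ w₂ w₃ : E) (h1 : ∀ x ∈ X, ρ x w₁ = w₁) (h2 : ∀ x ∈ X, ρ x w₂ = w₂)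
    (h3 : ∀ x ∈ X, ρ x w₃ = w₃)
    (h11 : f₁ w₁ ≠ 0) (h12 : f₁ w₂ = 0) (h13 : f₁ w₃ = 0)
    (h21 : f₂ w₁ = 0) (h22 : f₂ w₂ ≠ 0) (h23 : f₂ w₃ = 0)
    (h31 : f₃ w₁ = 0) (h32 : f₃ w₂ = 0) (h33 : f₃ w₃ ≠ 0) :
    8 ≤ Nat.card {v : E // ∀ x ∈ X, ρ x v = v} := by
  let φ : ZMod 2 × ZMod 2 × ZMod 2 → {v : E // ∀ x ∈ X, ρ x v = v} := fun c =>
    ⟨c.1 • w₁ + c.2.1 • w₂ + c.2.2 • w₃, fun x hx => by
      rw [map_add, map_add, map_smul, map_smul, map_smul, h1 x hx, h2 x hx, h3 x hx]⟩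
  have hφ : Function.Injective φ := by
    rintro ⟨a, b, c⟩ ⟨a', b', c'⟩ h
    have h0 : a • w₁ + b • w₂ + c • w₃ = a' • w₁ + b' • w₂ + c' • w₃ := congrArg Subtype.val h
    have e1 := congrArg f₁ h0
    have e2 := congrArg f₂ h0
    have e3 := congrArg f₃ h0
    simp only [map_add, map_smul, h12, h13, h21, h23, h31, h32, smul_zero, add_zero, zero_add]
      at e1 e2 e3
    rw [eq_of_smul h11 e1, eq_of_smul h22 e2, eq_of_smul h33 e3]
  have h8 : Nat.card (ZMod 2 × ZMod 2 × ZMod 2) = 8 := by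
    simp [Nat.card_prod]
  rw [← h8]
  exact Nat.card_le_card_of_injective φ hφ

theorem two_or {S E : Type*} [Group S] [AddCommGroup E] [Module (ZMod 2) E] [Finite E]
    (ρ : Representation (ZMod 2) S E) (X : Subgroup S) (f₁ f₂ : Module.End (ZMod 2) E)
    (w₁ w₂ : E) (h1 : ∀ x ∈ X, ρ x w₁ = w₁) (h2 : ∀ x ∈ X, ρ x w₂ = w₂)
    (h11 : f₁ w₁ ≠ 0) (h12 : f₁ w₂ = 0) (h21 : f₂ w₁ = 0) (h22 : f₂ w₂ ≠ 0) :
    8 ≤ Nat.card {v : E // ∀ x ∈ X, ρ x v = v} ∨
      (Nat.card {v : E // ∀ x ∈ X, ρ x v = v} = 4 ∧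
        ∀ v : E, (∀ x ∈ X, ρ x v = v) → v = 0 ∨ v = w₁ ∨ v = w₂ ∨ v = w₁ + w₂) := by
  have : Fact (Nat.Prime 2) := ⟨Nat.prime_two⟩
  let Fx : Submodule (ZMod 2) E :=
    { carrier := {v | ∀ x ∈ X, ρ x v = v}
      add_mem' := fun {u v} hu hv x hx => by rw [map_add, hu x hx, hv x hx]
      zero_mem' := fun x _ => map_zero _
      smul_mem' := fun c v hv x hx => by rw [map_smul, hv x hx] }
  have hcard : Nat.card {v : E // ∀ x ∈ X, ρ x v = v} = 2 ^ Module.finrank (ZMod 2) Fx := by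
    have h := Module.natCard_eq_pow_finrank (K := ZMod 2) (V := Fx)
    rw [Nat.card_zmod] at h
    exact h
  let φ : ZMod 2 × ZMod 2 → {v : E // ∀ x ∈ X, ρ x v = v} := fun c =>
    ⟨c.1 • w₁ + c.2 • w₂, fun x hx => by
      rw [map_add, map_smul, map_smul, h1 x hx, h2 x hx]⟩
  have hφ : Function.Injective φ := by
    rintro ⟨a, b⟩ ⟨a', b'⟩ h
    have h0 : a • w₁ + b • w₂ = a' • w₁ + b' • w₂ := congrArg Subtype.val h
    have e1 := congrArg f₁ h0
    have e2 := congrArg f₂ h0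
    simp only [map_add, map_smul, h12, h21, smul_zero, add_zero, zero_add] at e1 e2
    rw [eq_of_smul h11 e1, eq_of_smul h22 e2]
  have h4 : Nat.card (ZMod 2 × ZMod 2) = 4 := by
    simp [Nat.card_prod]
  have hle : 4 ≤ Nat.card {v : E // ∀ x ∈ X, ρ x v = v} := by
    rw [← h4]
    exact Nat.card_le_card_of_injective φ hφ
  by_cases hd : 3 ≤ Module.finrank (ZMod 2) Fx
  · left
    rw [hcard]
    calc 8 = 2 ^ 3 := by norm_num
      _ ≤ 2 ^ Module.finrank (ZMod 2) Fx := Nat.pow_le_pow_right (by norm_num) hd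
  · right
    have hle2 : Nat.card {v : E // ∀ x ∈ X, ρ x v = v} ≤ 4 := by
      rw [hcard]
      calc 2 ^ Module.finrank (ZMod 2) Fx ≤ 2 ^ 2 := Nat.pow_le_pow_right (by norm_num) (by omega)
        _ = 4 := by norm_num
    refine ⟨le_antisymm hle2 hle, ?_⟩
    intro v hv
    have hb := hφ.bijective_of_nat_card_le (by rw [h4]; exact hle2)
    obtain ⟨⟨a, b⟩, hab⟩ := hb.2 ⟨v, hv⟩
    have h0 : a • w₁ + b • w₂ = v := congrArg Subtype.val hab
    rcases z2 a with rfl | rfl <;> rcases z2 b with rfl | rfl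
    · left; rw [← h0]; simp
    · right; right; left; rw [← h0]; simp
    · right; left; rw [← h0]; simp
    · right; right; right; rw [← h0]; simp

end Cfsg.Agent.Lib.H24TNLin
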