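import Mathlib
import Cfsg.Agent.Lib.H24FMDefs
import Cfsg.Agent.Lib.H24TNDefs
import Cfsg.Agent.Lib.H24FMFixP

set_option autoImplicit false

/-! PROJECT 4414 = TN (row S4414), piece `OrbVec`.
orbVec: a fixed vector of the 2-group X whose support {j | e j w ≠ 0} is exactly the X-orbit O of i. -/

namespace Cfsg.Agent.Lib.H24TNOrbVec

open Cfsg.Agent.Lib.H24FMDefs Cfsg.Agent.Lib.H24TNDefs

theorem orbVec {S E I : Type*} [Group S] [Finite S] [AddCommGroup E] [Module (ZMod 2) E] [Finite I]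
    {ρ : Representation (ZMod 2) S E} {a : S → I → I} {e : I → Module.End (ZMod 2) E}
    (hs : Sys ρ a e) (X : Subgroup S) (hX : IsPGroup 2 X) (i : I) (hi : e i ≠ 0) :
    ∃ w : E, (∀ x ∈ X, ρ x w = w) ∧ ∀ j, e j w ≠ 0 ↔ ∃ x ∈ X, a x i = j := by
  classical
  haveI := Fintype.ofFinite I
  set O : Finset I := Finset.univ.filter (fun j => ∃ x ∈ X, a x i = j) with hO
  have memO : ∀ j, j ∈ O ↔ ∃ x ∈ X, a x i = j := by
    intro j
    rw [hO, Finset.mem_filter]
    simp
  set eO : Module.End (ZMod 2) E := ∑ j ∈ O, e j with heO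
  have hiO : i ∈ O := (memO i).2 ⟨1, X.one_mem, hs.one i⟩
  have hinvρ : ∀ (g : S) (v : E), ρ g⁻¹ (ρ g v) = v := by
    intro g v
    have := congrArg (fun f : Module.End (ZMod 2) E => f v) (rep_inv_mul ρ g)
    simpa using this
  have hconj : ∀ (g : S) (j : I) (v : E), ρ g (e j v) = e (a g j) (ρ g v) := by
    intro g j v
    rw [← hs.conj g j]
    show ρ g (e j v) = ρ g (e j (ρ g⁻¹ (ρ g v)))
    rw [hinvρ]
  have hainv : ∀ (x : S) (j : I), a x⁻¹ (a x j) = j := by
    intro x j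
    rw [← hs.mul, inv_mul_cancel, hs.one]
  have hainv' : ∀ (x : S) (j : I), a x (a x⁻¹ j) = j := by
    intro x j
    rw [← hs.mul, mul_inv_cancel, hs.one]
  have hOst : ∀ x ∈ X, ∀ j ∈ O, a x j ∈ O := by
    intro x hx j hj
    obtain ⟨y, hy, rfl⟩ := (memO j).1 hj
    exact (memO _).2 ⟨x * y, X.mul_mem hx hy, hs.mul x y i⟩
  have heOapp : ∀ v : E, eO v = ∑ j ∈ O, e j v := by
    intro v
    rw [heO, LinearMap.sum_apply]
  have hcomm : ∀ x ∈ X, ∀ v, ρ x (eO v) = eO (ρ x v) := by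
    intro x hx v
    rw [heOapp, heOapp, map_sum]
    simp only [hconj]
    apply Finset.sum_bij' (fun j _ => a x j) (fun j _ => a x⁻¹ j)
    · intro j hj; exact hOst x hx j hj
    · intro j hj; exact hOst x⁻¹ (X.inv_mem hx) j hj
    · intro j _; exact hainv x j
    · intro j _; exact hainv' x j
    · intro j _; rfl
  have hee : ∀ (j l : I) (v : E), e j (e l v) = if j = l then e j v else 0 := by
    intro j l v
    by_cases h : j = l
    · subst h
      rw [if_pos rfl]
      have := congrArg (fun f : Module.End (ZMod 2) E => f v) (hs.idem j)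
      simpa using this
    · rw [if_neg h]
      have := congrArg (fun f : Module.End (ZMod 2) E => f v) (hs.orth j l h)
      simpa using this
  have hjO : ∀ (j : I) (v : E), e j (eO v) = if j ∈ O then e j v else 0 := by
    intro j v
    rw [heOapp, map_sum]
    simp only [hee]
    rw [Finset.sum_ite_eq O j]
  have hidem : ∀ v : E, eO (eO v) = eO v := by
    intro v
    rw [heOapp (eO v), heOapp v]
    apply Finset.sum_congr rfl
    intro j hj
    rw [← heOapp v, hjO, if_pos hj]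
  have hN : LinearMap.range eO ≠ ⊥ := by
    obtain ⟨v, hv⟩ : ∃ v, e i v ≠ 0 := by
      by_contra hcon
      push Not at hcon
      exact hi (LinearMap.ext hcon)
    intro hbot
    have h1 : eO v ∈ LinearMap.range eO := ⟨v, rfl⟩
    rw [hbot, Submodule.mem_bot] at h1
    have h2 := hjO i v
    rw [h1, map_zero, if_pos hiO] at h2
    exact hv h2.symm
  haveI : Fact (Nat.Prime 2) := ⟨Nat.prime_two⟩
  obtain ⟨w, hwN, hw0, hwfix⟩ := Cfsg.Agent.Lib.H24FMFixP.exists_fixed 2 ρ X hX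
    (LinearMap.range eO) hN (by
      rintro x hx _ ⟨u, rfl⟩
      exact ⟨ρ x u, (hcomm x hx u).symm⟩)
  obtain ⟨u, rfl⟩ := hwN
  have hex : ∃ j₀ ∈ O, e j₀ (eO u) ≠ 0 := by
    by_contra hcon
    push Not at hcon
    apply hw0
    rw [← hidem u, heOapp (eO u)]
    exact Finset.sum_eq_zero hcon
  obtain ⟨j₀, hj₀, hne⟩ := hex
  refine ⟨eO u, hwfix, fun j => ⟨fun h => ?_, fun h => ?_⟩⟩
  · by_contra hcon
    apply h
    rw [hjO, if_neg (fun hj => hcon ((memO j).1 hj))]
  · obtain ⟨x, hx, rfl⟩ := h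
    obtain ⟨x₀, hx₀, rfl⟩ := (memO j₀).1 hj₀
    have h1 : a x i = a (x * x₀⁻¹) (a x₀ i) := by
      rw [← hs.mul, inv_mul_cancel_right]
    have hy : x * x₀⁻¹ ∈ X := X.mul_mem hx (X.inv_mem hx₀)
    rw [h1, ← hwfix _ hy, ← hconj]
    intro h0
    apply hne
    have := hinvρ (x * x₀⁻¹) (e (a x₀ i) (eO u))
    rw [h0, map_zero] at this
    exact this.symm

end Cfsg.Agent.Lib.H24TNOrbVec
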