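import Mathlib
import Cfsg.Agent.Lib.H24FMDefs
import Cfsg.Agent.Lib.H24TNDefs


set_option autoImplicit false

/-! PROJECT 4414 = TN (row S4414), piece `YOrb`.  Keep file name, namespace, theorem names and statements; extra helper lemmas are fine.

PURE MATHLIB group actions.  Make `MulAction S I` from a (`{ smul := a, one_smul := one, mul_smul := mul }`).  O = the X-orbit of i; #O is a power of 2 (`IsPGroup.card_orbit` for the action of ↥X).
By contradiction: a y j ∈ O for all j ∈ O.  Then a (y^n) maps O to O, so ↥(zpowers y) acts on the subtype O; zpowers y is a q-group (y ^ q = 1: `IsPGroup.of_card`/orderOf y ∣ q);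
`IsPGroup.card_modEq_card_fixedPoints`: #O ≡ #fixed points mod q; q ∤ 2 ^ b (q an odd prime), so there is a fixed point j ∈ O: a y j = j, against hfix. -/

namespace Cfsg.Agent.Lib.H24TNYOrb

open Cfsg.Agent.Lib.H24FMDefs Cfsg.Agent.Lib.H24TNDefs

theorem yorb {S I : Type*} [Group S] [Finite S] [Finite I] (a : S → I → I) (one : ∀ i, a 1 i = i)
    (mul : ∀ g h i, a (g * h) i = a g (a h i)) (X : Subgroup S) (hX : IsPGroup 2 X) (y : S) (q : ℕ)
    (hq : q.Prime) (hq2 : q ≠ 2) (hy : y ^ q = 1) (i : I)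
    (hfix : ∀ j, (∃ x ∈ X, a x i = j) → a y j ≠ j) :
    ∃ j, (∃ x ∈ X, a x i = j) ∧ ¬ ∃ x ∈ X, a x i = a y j := by
  classical
  by_contra hcon
  push_neg at hcon
  letI : MulAction S I := { smul := a, one_smul := one, mul_smul := mul }
  let O : Set I := MulAction.orbit X i
  have hO : ∀ j, j ∈ O ↔ ∃ x ∈ X, a x i = j := by
    intro j
    constructor
    · rintro ⟨x, rfl⟩
      exact ⟨x.1, x.2, rfl⟩
    · rintro ⟨x, hx, rfl⟩
      exact ⟨⟨x, hx⟩, rfl⟩
  obtain ⟨n, hn⟩ := hX.card_orbit i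
  haveI : Fact q.Prime := ⟨hq⟩
  haveI : Fintype O := Fintype.ofFinite O
  let f : Function.End O := fun j => ⟨a y j.1, (hO _).2 (hcon j.1 ((hO _).1 j.2))⟩
  have hpow : ∀ (m : ℕ) (j : O), ((f ^ m) j).1 = a (y ^ m) j.1 := by
    intro m
    induction m with
    | zero =>
      intro j
      rw [pow_zero, pow_zero, one]
      rfl
    | succ m ih =>
      intro j
      rw [pow_succ', pow_succ', mul]
      change a y ((f ^ m) j).1 = _
      rw [ih]
  have hf : f ^ q ^ 1 = 1 := by
    funext j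
    apply Subtype.ext
    rw [pow_one, hpow, hy, one]
    rfl
  have hmod := Equiv.Perm.card_fixedPoints_modEq hf
  have hfp : Fintype.card (Function.fixedPoints f) = 0 := by
    rw [Fintype.card_eq_zero_iff]
    constructor
    rintro ⟨j, hj⟩
    exact hfix j.1 ((hO _).1 j.2) (congrArg Subtype.val hj)
  rw [hfp] at hmod
  have hdvd : q ∣ Fintype.card O := (Nat.modEq_zero_iff_dvd).1 hmod
  rw [← Nat.card_eq_fintype_card] at hdvd
  have hn' : Nat.card O = 2 ^ n := hn
  rw [hn'] at hdvd
  exact hq2 ((Nat.prime_dvd_prime_iff_eq hq Nat.prime_two).1 (hq.dvd_of_dvd_pow hdvd))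

end Cfsg.Agent.Lib.H24TNYOrb
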