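import Mathlib
import Cfsg.Agent.Lib.H24FMDefs
import Cfsg.Agent.Lib.H24TNDefs
import Cfsg.Agent.Lib.H24TNOrbVec
import Cfsg.Agent.Lib.H24TNLin
import Cfsg.Agent.Lib.H24TNYOrb

set_option autoImplicit false

/-! PROJECT 4414 = TN (row S4414), piece `Comb`: assembly of the combinatorial part. -/

namespace Cfsg.Agent.Lib.H24TNComb

open Cfsg.Agent.Lib.H24FMDefs Cfsg.Agent.Lib.H24TNDefs

theorem comb {S E I : Type*} [Group S] [Finite S] [AddCommGroup E] [Module (ZMod 2) E] [Finite E]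
    [Nontrivial E] [Finite I] (ρ : Representation (ZMod 2) S E) (a : S → I → I)
    (e : I → Module.End (ZMod 2) E) (hs : Sys ρ a e) (X : Subgroup S) (hX : IsPGroup 2 X) (y : S)
    (q : ℕ) (hq : q.Prime) (hq2 : q ≠ 2) (hy : y ^ q = 1)
    (hA : ∀ i, e i ≠ 0 → a y i = i → 8 ≤ Nat.card {v : E // ∀ x ∈ X, ρ x v = v}) :
    8 ≤ Nat.card {v : E // ∀ x ∈ X, ρ x v = v} ∨
      (Nat.card {v : E // ∀ x ∈ X, ρ x v = v} = 4 ∧
        ∃ v : E, (∀ x ∈ X, ρ x v = v) ∧ ¬ ∀ x ∈ X, ρ x (ρ y v) = ρ y v) := by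
  classical
  have hinv : ∀ (g : S) (w : E), ρ g⁻¹ (ρ g w) = w := fun g w => by
    have := congrArg (fun f : Module.End (ZMod 2) E => f w) (rep_inv_mul ρ g)
    exact this
  have hinj : ∀ g : S, Function.Injective (ρ g) := by
    intro g u v huv
    have := congrArg (ρ g⁻¹) huv
    rwa [hinv, hinv] at this
  have hne : ∀ (g : S) (u : E), u ≠ 0 → ρ g u ≠ 0 := by
    intro g u hu h0
    exact hu (hinj g (by rw [h0, map_zero]))
  have L1 : ∀ (g : S) (j : I) (w : E), e (a g j) (ρ g w) = ρ g (e j w) := by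
    intro g j w
    rw [← hs.conj g j]
    show ρ g (e j (ρ g⁻¹ (ρ g w))) = _
    rw [hinv]
  have L2 : ∀ (g : S) (i : I), e i ≠ 0 → e (a g i) ≠ 0 := by
    intro g i hi h0
    apply hi
    apply LinearMap.ext
    intro w
    have := L1 g i w
    rw [h0, LinearMap.zero_apply] at this
    by_contra hcon
    exact hne g _ hcon this.symm
  have Rrefl : ∀ i, ∃ x ∈ X, a x i = i := fun i => ⟨1, X.one_mem, hs.one i⟩
  have Rsymm : ∀ i j, (∃ x ∈ X, a x i = j) → ∃ x ∈ X, a x j = i := by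
    rintro i j ⟨x, hx, rfl⟩
    exact ⟨x⁻¹, X.inv_mem hx, by rw [← hs.mul, inv_mul_cancel, hs.one]⟩
  have Rtrans : ∀ i j k, (∃ x ∈ X, a x i = j) → (∃ x ∈ X, a x j = k) → ∃ x ∈ X, a x i = k := by
    rintro i j k ⟨x, hx, rfl⟩ ⟨x', hx', rfl⟩
    exact ⟨x' * x, X.mul_mem hx' hx, hs.mul _ _ _⟩
  obtain ⟨i₁, hi₁⟩ : ∃ i, e i ≠ 0 := by
    by_contra hcon
    push Not at hcon
    have h1 := hs.sum
    rw [finsum_congr hcon, finsum_zero] at h1
    obtain ⟨v, hv⟩ := exists_ne (0 : E)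
    have := congrArg (fun f : Module.End (ZMod 2) E => f v) h1
    exact hv this.symm
  by_cases hfix : ∃ i, e i ≠ 0 ∧ a y i = i
  · obtain ⟨i, hi, hyi⟩ := hfix
    left; exact hA i hi hyi
  push Not at hfix
  have hO₁ : ∀ j, (∃ x ∈ X, a x i₁ = j) → e j ≠ 0 := by
    rintro j ⟨x, _, rfl⟩
    exact L2 x i₁ hi₁
  obtain ⟨j, hj1, hj2⟩ := H24TNYOrb.yorb a hs.one hs.mul X hX y q hq hq2 hy i₁
    (fun j hj => hfix j (hO₁ j hj))
  have hi₂ : e (a y j) ≠ 0 := L2 y j (hO₁ j hj1)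
  obtain ⟨w₁, hw₁, hs₁⟩ := H24TNOrbVec.orbVec hs X hX i₁ hi₁
  obtain ⟨w₂, hw₂, hs₂⟩ := H24TNOrbVec.orbVec hs X hX (a y j) hi₂
  have z₁ : ∀ k, (¬ ∃ x ∈ X, a x i₁ = k) → e k w₁ = 0 := by
    intro k hk
    by_contra hcon
    exact hk ((hs₁ k).1 hcon)
  have z₂ : ∀ k, (¬ ∃ x ∈ X, a x (a y j) = k) → e k w₂ = 0 := by
    intro k hk
    by_contra hcon
    exact hk ((hs₂ k).1 hcon)
  have hdis : ∀ k, (∃ x ∈ X, a x i₁ = k) → ¬ ∃ x ∈ X, a x (a y j) = k := by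
    intro k h1 h2
    exact hj2 (Rtrans _ _ _ h1 (Rsymm _ _ h2))
  have h11 : e i₁ w₁ ≠ 0 := (hs₁ i₁).2 (Rrefl i₁)
  have h22 : e (a y j) w₂ ≠ 0 := (hs₂ _).2 (Rrefl _)
  have h12 : e i₁ w₂ = 0 := z₂ _ (hdis _ (Rrefl i₁))
  have h21 : e (a y j) w₁ = 0 := z₁ _ hj2
  by_cases h3 : ∃ i₃, e i₃ ≠ 0 ∧ (¬ ∃ x ∈ X, a x i₁ = i₃) ∧ ¬ ∃ x ∈ X, a x (a y j) = i₃
  · obtain ⟨i₃, hi₃, hn1, hn2⟩ := h3
    obtain ⟨w₃, hw₃, hs₃⟩ := H24TNOrbVec.orbVec hs X hX i₃ hi₃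
    have z₃ : ∀ k, (¬ ∃ x ∈ X, a x i₃ = k) → e k w₃ = 0 := by
      intro k hk
      by_contra hcon
      exact hk ((hs₃ k).1 hcon)
    left
    exact H24TNLin.three ρ X (e i₁) (e (a y j)) (e i₃) w₁ w₂ w₃ hw₁ hw₂ hw₃ h11 h12
      (z₃ _ (fun h => hn1 (Rsymm _ _ h))) h21 h22 (z₃ _ (fun h => hn2 (Rsymm _ _ h)))
      (z₁ _ hn1) (z₂ _ hn2) ((hs₃ _).2 (Rrefl _))
  have hcov : ∀ k, e k ≠ 0 → (∃ x ∈ X, a x i₁ = k) ∨ ∃ x ∈ X, a x (a y j) = k := by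
    intro k hk
    by_cases h1 : ∃ x ∈ X, a x i₁ = k
    · left; exact h1
    · right
      by_contra h2
      exact h3 ⟨k, hk, h1, h2⟩
  rcases H24TNLin.two_or ρ X (e i₁) (e (a y j)) w₁ w₂ hw₁ hw₂ h11 h12 h21 h22 with h8 | ⟨h4, hall⟩
  · left; exact h8
  right
  refine ⟨h4, w₁, hw₁, ?_⟩
  intro hfixed
  rcases hall _ hfixed with h | h | h | h
  · exact hne y w₁ (fun h0 => h11 (by rw [h0, map_zero])) h
  · apply hj2
    rw [← hs₁]
    have := L1 y j w₁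
    rw [h] at this
    rw [this]
    exact hne y _ ((hs₁ j).2 hj1)
  · -- `ρ y w₁ = w₂`
    have hsw : ∀ k, (∃ x ∈ X, a x i₁ = k) ↔ ∃ x ∈ X, a x (a y j) = a y k := by
      intro k
      rw [← hs₁, ← hs₂, ← h, L1]
      constructor
      · intro hk; exact hne y _ hk
      · intro hk h0; exact hk (by rw [h0, map_zero])
    have hsw2 : ∀ k, (∃ x ∈ X, a x (a y j) = k) → ∃ x ∈ X, a x i₁ = a y k := by
      intro k hk
      have hek : e k ≠ 0 := by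
        obtain ⟨x, _, rfl⟩ := hk
        exact L2 x _ hi₂
      rcases hcov _ (L2 y k hek) with h1 | h1
      · exact h1
      · exact absurd hk (hdis k ((hsw k).2 h1))
    have hind : ∀ n : ℕ, (∃ x ∈ X, a x i₁ = a (y ^ (2 * n)) i₁) ∧
        ∃ x ∈ X, a x (a y j) = a (y ^ (2 * n + 1)) i₁ := by
      intro n
      induction n with
      | zero =>
        refine ⟨by simpa [hs.one] using Rrefl i₁, ?_⟩
        have := (hsw i₁).1 (Rrefl i₁)
        simpa using this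
      | succ n ih =>
        have h1 : ∃ x ∈ X, a x i₁ = a (y ^ (2 * (n + 1))) i₁ := by
          have := hsw2 _ ih.2
          rw [← hs.mul, ← pow_succ'] at this
          exact this
        refine ⟨h1, ?_⟩
        have := (hsw _).1 h1
        rw [← hs.mul, ← pow_succ'] at this
        exact this
    obtain ⟨n, hn⟩ := hq.odd_of_ne_two hq2
    have := (hind n).2
    rw [← hn, hy, hs.one] at this
    exact hdis i₁ (Rrefl i₁) this
  · -- `ρ y w₁ = w₁ + w₂`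
    have hm : e (a y (a y j)) ≠ 0 := L2 y _ hi₂
    have hnz : e (a y (a y j)) (w₁ + w₂) ≠ 0 := by
      rw [map_add]
      rcases hcov _ hm with h1 | h1
      · rw [z₂ _ (hdis _ h1), add_zero]
        exact (hs₁ _).2 h1
      · rw [z₁ _ (fun h2 => hdis _ h2 h1), zero_add]
        exact (hs₂ _).2 h1
    rw [← h, L1, h21, map_zero] at hnz
    exact hnz rfl

end Cfsg.Agent.Lib.H24TNComb
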