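import Mathlib
import Cfsg.Agent.Lib.H24FMDefs
import Cfsg.Agent.Lib.H24TNDefs


set_option autoImplicit false

/-! PROJECT 4414 = TN (row S4414), piece `Count`.  Keep file name, namespace, theorem names and statements; extra helper lemmas are fine.

count: V = ⊕_{t ∈ T} t W, T = σ(Hc) a finite group of invertible operators, X ≤ Hc a 2-group, y ∈ Hc with σ y of order q (odd prime).  Then X has at least 8 fixed vectors.
W ≠ ⊥ (V nontrivial); pick 0 ≠ w ∈ W.  T_X := image of X (a Finset ⊆ T, closed under products and inverses).  For t ∈ T: u_t := ∑_{s ∈ T_X} (s * t) w.  u_t is fixed by σ x, x ∈ X (s ↦ σ x * s permutes T_X).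
u_t = ∑_{r ∈ T_X t} r w, a sum of NON ZERO vectors r w ∈ r W (r invertible) over the coset T_X t ⊆ T.  Cosets T_X t₁, T_X t₂, T_X t₃ pairwise disjoint ⇒ the 8 vectors α u₁ + β u₂ + γ u₃ are distinct: by independence
(criterion `Cfsg.Agent.Lib.H24FMDescent.indep_of_fintype`'s converse = `iSupIndep_iff_finsetSum_eq_zero_imp_eq_zero` / `iSupIndep.dfinsupp_lsum_injective`) a relation ∑_{r ∈ T} c_r • r w = 0 forces all c_r = 0.
THREE COSETS: the number of cosets is #T / #T_X.  Cleanest: G'' := Hc.map σ.asGroupHom (a subgroup of (End V)ˣ), X'' := X.map σ.asGroupHom ≤ G''; X'' is a 2-group (`IsPGroup.map`), σ.asGroupHom y ∈ G'' has order q (y ^ q = 1, σ y ≠ 1), so q ∣ #G'';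
#G'' = #X'' · index, q ∤ #X'' = 2^b, so q ∣ relindex ≥ 3: there are 3 distinct right cosets; take representatives t₁ = 1, t₂, t₃.   (Alternative: t_m = σ (y^m), m = 0, 1, 2: σ (y^m) (σ (y^l))⁻¹ = σ (y^(m-l)) has order q, so it is not in the 2-group T_X.  THIS IS SIMPLER: use it.) -/

namespace Cfsg.Agent.Lib.H24TNCount

open Cfsg.Agent.Lib.H24FMDefs Cfsg.Agent.Lib.H24TNDefs

theorem count {A V : Type*} [Group A] [Finite A] [AddCommGroup V] [Module (ZMod 2) V] [Finite V]
    [Nontrivial V] (σ : Representation (ZMod 2) A V) (Hc X : Subgroup A)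
    (W : Submodule (ZMod 2) V) (T : Finset (Module.End (ZMod 2) V))
    (hT : ∀ t, t ∈ T ↔ ∃ h ∈ Hc, t = σ h)
    (hind : iSupIndep (fun t : T => W.map (t : Module.End (ZMod 2) V)))
    (hsup : ⨆ t : T, W.map (t : Module.End (ZMod 2) V) = ⊤)
    (hXH : X ≤ Hc) (hX : IsPGroup 2 X) (y : A) (hyH : y ∈ Hc) (q : ℕ) (hq : q.Prime) (hq2 : q ≠ 2)
    (hyq : y ^ q = 1) (hy1 : σ y ≠ 1) :
    8 ≤ Nat.card {v : V // ∀ x ∈ X, σ x v = v} := by
  classical
  have hinv : ∀ (g : A) (w : V), σ g⁻¹ (σ g w) = w := fun g w => by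
    have := congrArg (fun f : Module.End (ZMod 2) V => f w) (rep_inv_mul σ g)
    exact this
  have hne : ∀ (g : A) (u : V), u ≠ 0 → σ g u ≠ 0 := by
    intro g u hu h0
    apply hu
    have := hinv g u
    rw [h0, map_zero] at this
    exact this.symm
  -- a nonzero vector of `W`
  have hW : W ≠ ⊥ := by
    rintro rfl
    simp only [Submodule.map_bot, iSup_bot] at hsup
    exact bot_ne_top hsup
  obtain ⟨w, hwW, hw0⟩ := Submodule.exists_mem_ne_zero_of_ne_bot hW
  -- powers of `y` are not in the image of `X`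
  have K : ∀ d : ℕ, 0 < d → d < 3 → ∀ x ∈ X, σ x ≠ σ (y ^ d) := by
    intro d hd0 hd3 x hx hxy
    obtain ⟨k, hk⟩ := hX ⟨x, hx⟩
    have hk' : x ^ 2 ^ k = 1 := congrArg Subtype.val hk
    have h1 : (σ y) ^ (d * 2 ^ k) = 1 := by
      rw [pow_mul, ← map_pow, ← hxy, ← map_pow, hk', map_one]
    have h2 : (σ y) ^ q = 1 := by rw [← map_pow, hyq, map_one]
    have d1 := orderOf_dvd_of_pow_eq_one h1
    have d2 := orderOf_dvd_of_pow_eq_one h2
    have hcop : Nat.Coprime (d * 2 ^ k) q := by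
      rw [Nat.coprime_comm, Nat.Prime.coprime_iff_not_dvd hq]
      intro hdvd
      rcases (Nat.Prime.dvd_mul hq).1 hdvd with h | h
      · have h3 := Nat.le_of_dvd hd0 h
        have h4 := hq.two_le
        omega
      · exact hq2 ((Nat.prime_dvd_prime_iff_eq hq Nat.prime_two).1 (hq.dvd_of_dvd_pow h))
    have h3 : orderOf (σ y) = 1 := Nat.eq_one_of_dvd_coprimes hcop d1 d2
    exact hy1 (orderOf_eq_one_iff.1 h3)
  have D : ∀ m n : ℕ, m < 3 → n < 3 → m ≠ n → ¬ ∃ x ∈ X, σ (y ^ m) = σ x * σ (y ^ n) := by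
    rintro m n hm hn hmn ⟨x, hx, h⟩
    rcases lt_or_gt_of_ne hmn with hlt | hlt
    · apply K (n - m) (by omega) (by omega) x⁻¹ (X.inv_mem hx)
      rw [pow_sub y hlt.le]
      calc σ x⁻¹ = σ x⁻¹ * σ (y ^ m) * σ (y ^ m)⁻¹ := by
            rw [mul_assoc, rep_mul_inv, mul_one]
        _ = σ x⁻¹ * (σ x * σ (y ^ n)) * σ (y ^ m)⁻¹ := by rw [h]
        _ = σ (y ^ n * (y ^ m)⁻¹) := by
            rw [← mul_assoc, rep_inv_mul, one_mul, map_mul]
    · apply K (m - n) (by omega) (by omega) x hx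
      rw [pow_sub y hlt.le, map_mul, h, mul_assoc, rep_mul_inv, mul_one]
  -- the vectors
  let P : ℕ → Module.End (ZMod 2) V → Prop := fun m r => ∃ x ∈ X, r = σ x * σ (y ^ m)
  let u : ℕ → V := fun m => ∑ r ∈ T, if P m r then r w else 0
  have hfix : ∀ m, ∀ x ∈ X, σ x (u m) = u m := by
    intro m x hx
    show σ x (∑ r ∈ T, if P m r then r w else 0) = ∑ r ∈ T, if P m r then r w else 0
    rw [map_sum]
    refine Finset.sum_nbij' (fun r => σ x * r) (fun r => σ x⁻¹ * r) ?_ ?_ ?_ ?_ ?_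
    · intro r hr
      obtain ⟨h, hh, rfl⟩ := (hT r).1 hr
      exact (hT _).2 ⟨x * h, Hc.mul_mem (hXH hx) hh, (map_mul σ x h).symm⟩
    · intro r hr
      obtain ⟨h, hh, rfl⟩ := (hT r).1 hr
      exact (hT _).2 ⟨x⁻¹ * h, Hc.mul_mem (Hc.inv_mem (hXH hx)) hh, (map_mul σ x⁻¹ h).symm⟩
    · intro r _
      show σ x⁻¹ * (σ x * r) = r
      rw [← mul_assoc, rep_inv_mul, one_mul]
    · intro r _
      show σ x * (σ x⁻¹ * r) = r
      rw [← mul_assoc, rep_mul_inv, one_mul]
    · intro r _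
      have hiff : P m (σ x * r) ↔ P m r := by
        constructor
        · rintro ⟨x', hx', h⟩
          refine ⟨x⁻¹ * x', X.mul_mem (X.inv_mem hx) hx', ?_⟩
          rw [map_mul, mul_assoc, ← h, ← mul_assoc, rep_inv_mul, one_mul]
        · rintro ⟨x', hx', rfl⟩
          exact ⟨x * x', X.mul_mem hx hx', by rw [map_mul, mul_assoc]⟩
      by_cases hP : P m r
      · rw [if_pos hP, if_pos (hiff.2 hP)]; rfl
      · rw [if_neg hP, if_neg (fun h => hP (hiff.1 h)), map_zero]
  -- independence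
  have hindep : ∀ c : Module.End (ZMod 2) V → ZMod 2, ∑ r ∈ T, c r • r w = 0 →
      ∀ r ∈ T, c r • r w = 0 := by
    intro c hc r hr
    have h1 := (iSupIndep_iff_finsetSum_eq_zero_imp_eq_zero _).1 hind Finset.univ
      (fun t : T => c (t : Module.End (ZMod 2) V) • (t : Module.End (ZMod 2) V) w)
      (fun t _ => Submodule.smul_mem _ _ (Submodule.mem_map_of_mem hwW))
      (by rw [Finset.sum_coe_sort T (fun r => c r • r w)]; exact hc) ⟨r, hr⟩ (Finset.mem_univ _)
    exact h1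
  have hker : ∀ α β γ : ZMod 2, α • u 0 + β • u 1 + γ • u 2 = 0 → α = 0 ∧ β = 0 ∧ γ = 0 := by
    intro α β γ h
    have h1 : ∑ r ∈ T, ((if P 0 r then α else 0) + (if P 1 r then β else 0) +
        (if P 2 r then γ else 0)) • r w = 0 := by
      rw [← h]
      show _ = α • (∑ r ∈ T, if P 0 r then r w else 0) + β • (∑ r ∈ T, if P 1 r then r w else 0) +
        γ • (∑ r ∈ T, if P 2 r then r w else 0)
      rw [Finset.smul_sum, Finset.smul_sum, Finset.smul_sum, ← Finset.sum_add_distrib,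
        ← Finset.sum_add_distrib]
      apply Finset.sum_congr rfl
      intro r _
      rw [add_smul, add_smul]
      congr 1
      · congr 1
        · split_ifs <;> simp
        · split_ifs <;> simp
      · split_ifs <;> simp
    have h2 := hindep _ h1
    have hmem : ∀ m : ℕ, σ (y ^ m) ∈ T := fun m => (hT _).2 ⟨y ^ m, Hc.pow_mem hyH m, rfl⟩
    have hPm : ∀ m : ℕ, P m (σ (y ^ m)) := fun m => ⟨1, X.one_mem, by rw [map_one, one_mul]⟩
    have hv : ∀ m : ℕ, σ (y ^ m) w ≠ 0 := fun m => hne _ _ hw0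
    refine ⟨?_, ?_, ?_⟩
    · have h3 := h2 _ (hmem 0)
      rw [if_pos (hPm 0), if_neg (D 0 1 (by norm_num) (by norm_num) (by norm_num)),
        if_neg (D 0 2 (by norm_num) (by norm_num) (by norm_num)), add_zero, add_zero] at h3
      exact (smul_eq_zero.1 h3).resolve_right (hv 0)
    · have h3 := h2 _ (hmem 1)
      rw [if_pos (hPm 1), if_neg (D 1 0 (by norm_num) (by norm_num) (by norm_num)),
        if_neg (D 1 2 (by norm_num) (by norm_num) (by norm_num)), add_zero, zero_add] at h3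
      exact (smul_eq_zero.1 h3).resolve_right (hv 1)
    · have h3 := h2 _ (hmem 2)
      rw [if_pos (hPm 2), if_neg (D 2 0 (by norm_num) (by norm_num) (by norm_num)),
        if_neg (D 2 1 (by norm_num) (by norm_num) (by norm_num)), zero_add, zero_add] at h3
      exact (smul_eq_zero.1 h3).resolve_right (hv 2)
  let Φ : ZMod 2 × ZMod 2 × ZMod 2 → {v : V // ∀ x ∈ X, σ x v = v} := fun t =>
    ⟨t.1 • u 0 + t.2.1 • u 1 + t.2.2 • u 2, fun x hx => by
      rw [map_add, map_add, map_smul, map_smul, map_smul, hfix 0 x hx, hfix 1 x hx, hfix 2 x hx]⟩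
  have hΦ : Function.Injective Φ := by
    rintro ⟨α, β, γ⟩ ⟨α', β', γ'⟩ h
    have h1 : α • u 0 + β • u 1 + γ • u 2 = α' • u 0 + β' • u 1 + γ' • u 2 :=
      congrArg Subtype.val h
    have h2 : (α - α') • u 0 + (β - β') • u 1 + (γ - γ') • u 2 = 0 := by
      have := sub_eq_zero.2 h1
      rw [← this]
      module
    obtain ⟨e1, e2, e3⟩ := hker _ _ _ h2
    rw [sub_eq_zero.1 e1, sub_eq_zero.1 e2, sub_eq_zero.1 e3]
  have := Nat.card_le_card_of_injective Φ hΦ
  rw [Nat.card_prod, Nat.card_prod, Nat.card_zmod] at this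
  exact this

end Cfsg.Agent.Lib.H24TNCount
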