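import Mathlib
import Cfsg.Agent.Lib.H24FMDefs
import Cfsg.Agent.Lib.H24TNDefs


set_option autoImplicit false

/-! PROJECT 4414 = TN (row S4414), piece `Grp`.  Keep file name, namespace, theorem names and statements; extra helper lemmas are fine.

PURE MATHLIB group theory.
abelian_exp: order p or p² ⇒ abelian (`IsPGroup.commutative_of_card_eq_prime_sq` / cyclic of prime order).  Ω = {z ∈ P | z ^ p = 1} is a subgroup (P abelian), normal in S (conjugation invariant, P normal), ≠ ⊥ (Cauchy: `exists_prime_orderOf_dvd_card` in ↥P), so Ω = P by hmin.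
exists_gen: `isCyclic_of_prime_card`, a generator of ↥Q, its value in S.
fpf_all: first for a generator y of Sq (exists_gen): φ : P → P, z ↦ z * y * z⁻¹ * y⁻¹ (= z (y z⁻¹ y⁻¹) ∈ P) is a homomorphism of the abelian group P; its image I is a subgroup normalized by y, and it contains all ⁅z, y^i⁆ (induction on i: ⁅z, y^(i+1)⁆ = ⁅z,y⁆ · y ⁅z,y^i⁆ y⁻¹ up to the convention), so ⁅P, Sq⁆ ≤ I; hence φ is onto, so injective (finite), i.e. C_P(y) = 1.  A non trivial power y^i generates Sq too, so C_P(y^i) = 1.  An arbitrary g of order q: zpowers g is a q-group, so it lies in a conjugate of Sq (`IsPGroup.exists_le_sylow`, `MulAction.exists_smul_eq`/Sylow conjugacy): g = s y^i s⁻¹; conjugate (P normal). -/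

namespace Cfsg.Agent.Lib.H24TNGrp

open Cfsg.Agent.Lib.H24FMDefs Cfsg.Agent.Lib.H24TNDefs

open scoped commutatorElement Pointwise

theorem abelian_exp {S : Type*} [Group S] [Finite S] (p : ℕ) (hp : p.Prime) (P : Subgroup S)
    (hPN : P.Normal) (hmin : ∀ N : Subgroup S, N.Normal → N ≤ P → N = ⊥ ∨ N = P)
    (hcard : Nat.card P = p ∨ Nat.card P = p ^ 2) :
    (∀ a ∈ P, ∀ b ∈ P, a * b = b * a) ∧ ∀ a ∈ P, a ^ p = 1 := by
  have : Fact p.Prime := ⟨hp⟩
  have hc : ∀ a b : P, a * b = b * a := by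
    rcases hcard with h | h
    · have hcy : IsCyclic P := isCyclic_of_prime_card h
      intro a b
      exact (IsCyclic.commGroup (α := P)).mul_comm a b
    · exact IsPGroup.commutative_of_card_eq_prime_sq h
  have hc' : ∀ a ∈ P, ∀ b ∈ P, a * b = b * a := by
    intro a ha b hb
    exact congrArg Subtype.val (hc ⟨a, ha⟩ ⟨b, hb⟩)
  refine ⟨hc', ?_⟩
  let Ω : Subgroup S :=
    { carrier := {z | z ∈ P ∧ z ^ p = 1}
      mul_mem' := fun {x y} hx hy => ⟨P.mul_mem hx.1 hy.1, by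
        rw [(show Commute x y from hc' x hx.1 y hy.1).mul_pow, hx.2, hy.2, one_mul]⟩
      one_mem' := ⟨P.one_mem, one_pow _⟩
      inv_mem' := fun {x} hx => ⟨P.inv_mem hx.1, by rw [inv_pow, hx.2, inv_one]⟩ }
  have hΩN : Ω.Normal := ⟨fun z hz g => ⟨hPN.conj_mem z hz.1 g, by
    rw [conj_pow, hz.2, mul_one, mul_inv_cancel]⟩⟩
  have hΩP : Ω ≤ P := fun z hz => hz.1
  have hdvd : p ∣ Nat.card P := by
    rcases hcard with h | h
    · rw [h]
    · rw [h]; exact dvd_pow_self p two_ne_zero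
  obtain ⟨x, hx⟩ := exists_prime_orderOf_dvd_card' p hdvd
  have hxΩ : x.1 ∈ Ω := ⟨x.2, by
    have h1 : x ^ p = 1 := by rw [← hx]; exact pow_orderOf_eq_one x
    exact congrArg Subtype.val h1⟩
  rcases hmin Ω hΩN hΩP with h | h
  · exfalso
    rw [h, Subgroup.mem_bot] at hxΩ
    have h1 : x = 1 := Subtype.ext hxΩ
    rw [h1, orderOf_one] at hx
    exact hp.one_lt.ne hx
  · intro a ha
    rw [← h] at ha
    exact ha.2

theorem exists_gen {S : Type*} [Group S] (q : ℕ) (hq : q.Prime) (Q : Subgroup S)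
    (hQ : Nat.card Q = q) : ∃ y : S, orderOf y = q ∧ Subgroup.zpowers y = Q := by
  have : Fact q.Prime := ⟨hq⟩
  have hfin : Finite Q := Nat.finite_of_card_ne_zero (by rw [hQ]; exact hq.ne_zero)
  have hcy : IsCyclic Q := isCyclic_of_prime_card hQ
  obtain ⟨g, hg⟩ := hcy.exists_generator
  have ho : orderOf g.1 = q := by
    rw [Subgroup.orderOf_coe, orderOf_eq_card_of_forall_mem_zpowers hg, hQ]
  refine ⟨g.1, ho, ?_⟩
  apply Subgroup.eq_of_le_of_card_ge
  · rw [Subgroup.zpowers_le]; exact g.2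
  · rw [Nat.card_zpowers, ho, hQ]

/-- a cyclic group acting on a normal abelian subgroup `P = [P, y]` has no fixed points -/
theorem fpf_gen {S : Type*} [Group S] [Finite S] (P : Subgroup S)
    (hPN : P.Normal) (hPc : ∀ a ∈ P, ∀ b ∈ P, a * b = b * a) (y : S)
    (hcomm : ⁅P, Subgroup.zpowers y⁆ = P) : ∀ z ∈ P, y * z = z * y → z = 1 := by
  have hmem : ∀ z ∈ P, z * y * z⁻¹ * y⁻¹ ∈ P := by
    intro z hz
    have h1 := P.mul_mem hz (hPN.conj_mem z⁻¹ (P.inv_mem hz) y)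
    have h2 : z * (y * z⁻¹ * y⁻¹) = z * y * z⁻¹ * y⁻¹ := by group
    rwa [h2] at h1
  let φ : P →* P :=
    { toFun := fun z => ⟨z.1 * y * z.1⁻¹ * y⁻¹, hmem z.1 z.2⟩
      map_one' := by
        apply Subtype.ext
        show (1 : S) * y * (1 : S)⁻¹ * y⁻¹ = 1
        group
      map_mul' := by
        intro z w
        apply Subtype.ext
        show (z.1 * w.1) * y * (z.1 * w.1)⁻¹ * y⁻¹ =
          (z.1 * y * z.1⁻¹ * y⁻¹) * (w.1 * y * w.1⁻¹ * y⁻¹)
        have hA : y * z.1⁻¹ * y⁻¹ ∈ P := hPN.conj_mem _ (P.inv_mem z.2) y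
        have hB : w.1 * y * w.1⁻¹ * y⁻¹ ∈ P := hmem w.1 w.2
        have h1 := hPc _ hA _ hB
        have e1 : (z.1 * w.1) * y * (z.1 * w.1)⁻¹ * y⁻¹ =
            z.1 * ((w.1 * y * w.1⁻¹ * y⁻¹) * (y * z.1⁻¹ * y⁻¹)) := by group
        have e2 : (z.1 * y * z.1⁻¹ * y⁻¹) * (w.1 * y * w.1⁻¹ * y⁻¹) =
            z.1 * ((y * z.1⁻¹ * y⁻¹) * (w.1 * y * w.1⁻¹ * y⁻¹)) := by group
        rw [e1, e2, h1] }
  have hφ : ∀ z : P, (φ z).1 = z.1 * y * z.1⁻¹ * y⁻¹ := fun _ => rfl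
  let J : Subgroup S := φ.range.map P.subtype
  have hJ : ∀ z ∈ P, z * y * z⁻¹ * y⁻¹ ∈ J := fun z hz => ⟨φ ⟨z, hz⟩, ⟨⟨z, hz⟩, rfl⟩, rfl⟩
  have hJy : ∀ w ∈ J, y * w * y⁻¹ ∈ J := by
    rintro _ ⟨_, ⟨z, rfl⟩, rfl⟩
    have h1 := hJ (y * z.1 * y⁻¹) (hPN.conj_mem z.1 z.2 y)
    have h2 : y * z.1 * y⁻¹ * y * (y * z.1 * y⁻¹)⁻¹ * y⁻¹ = y * (z.1 * y * z.1⁻¹ * y⁻¹) * y⁻¹ := by
      group
    rw [h2] at h1
    exact h1
  have hpow : ∀ (n : ℕ), ∀ z ∈ P, z * y ^ n * z⁻¹ * (y ^ n)⁻¹ ∈ J := by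
    intro n
    induction n with
    | zero =>
      intro z _
      have : z * y ^ 0 * z⁻¹ * (y ^ 0)⁻¹ = 1 := by group
      rw [this]; exact J.one_mem
    | succ n ih =>
      intro z hz
      have h1 := J.mul_mem (hJ z hz) (hJy _ (ih z hz))
      have h2 : z * y * z⁻¹ * y⁻¹ * (y * (z * y ^ n * z⁻¹ * (y ^ n)⁻¹) * y⁻¹) =
          z * y ^ (n + 1) * z⁻¹ * (y ^ (n + 1))⁻¹ := by
        rw [pow_succ']; group
      rwa [h2] at h1
  have hle : P ≤ J := by
    rw [← hcomm, Subgroup.commutator_le]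
    intro z hz u hu
    rw [← mem_powers_iff_mem_zpowers] at hu
    obtain ⟨n, rfl⟩ := hu
    rw [commutatorElement_def]
    exact hpow n z hz
  have hsurj : Function.Surjective φ := by
    intro w
    obtain ⟨_, ⟨z, rfl⟩, he⟩ := hle w.2
    exact ⟨z, Subtype.ext he⟩
  have hinj : Function.Injective φ := Finite.injective_iff_surjective.2 hsurj
  intro z hz hyz
  have h1 : φ ⟨z, hz⟩ = 1 := by
    apply Subtype.ext
    rw [hφ]
    show z * y * z⁻¹ * y⁻¹ = 1
    rw [← hyz]; group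
  have h2 := hinj (h1.trans (map_one φ).symm)
  exact congrArg Subtype.val h2

theorem fpf_all {S : Type*} [Group S] [Finite S] (q : ℕ) (hq : q.Prime) (P : Subgroup S)
    (hPN : P.Normal) (hPc : ∀ a ∈ P, ∀ b ∈ P, a * b = b * a) (Sq : Sylow q S)
    (hSq : Nat.card Sq = q) (hcomm : ⁅P, (Sq : Subgroup S)⁆ = P) :
    ∀ g : S, orderOf g = q → ∀ z ∈ P, g * z = z * g → z = 1 := by
  have : Fact q.Prime := ⟨hq⟩
  intro g hg
  have hpg : IsPGroup q (Subgroup.zpowers g) := IsPGroup.of_card (n := 1) (by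
    rw [Nat.card_zpowers, hg, pow_one])
  obtain ⟨Q', hQ'⟩ := hpg.exists_le_sylow
  obtain ⟨s, hs⟩ := MulAction.exists_smul_eq S Sq Q'
  have hcardQ : Nat.card Q' = q := by
    rw [Sylow.card_eq_multiplicity, ← Sylow.card_eq_multiplicity Sq, hSq]
  have hz : Subgroup.zpowers g = (Q' : Subgroup S) := by
    apply Subgroup.eq_of_le_of_card_ge hQ'
    rw [Nat.card_zpowers, hg]
    exact hcardQ.le
  have hQs : (Q' : Subgroup S) = (Sq : Subgroup S).map (MulAut.conj s).toMonoidHom := by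
    rw [← hs]
    rfl
  have hPs : P.map (MulAut.conj s).toMonoidHom = P := by
    have := Subgroup.Normal.conj_smul_eq_self s P
    exact this
  have hc : ⁅P, Subgroup.zpowers g⁆ = P := by
    rw [hz, hQs]
    conv_lhs => rw [← hPs]
    rw [← Subgroup.map_commutator, hcomm, hPs]
  exact fpf_gen P hPN hPc g hc

theorem cp_zero {S E : Type*} [Group S] [AddCommGroup E] [Module (ZMod 2) E]
    (ρ : Representation (ZMod 2) S E) (P : Subgroup S) (hPN : P.Normal) (hP1 : P ≠ ⊥)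
    (hirr : ∀ N : Submodule (ZMod 2) E, (∀ s : S, ∀ m ∈ N, ρ s m ∈ N) → N = ⊥ ∨ N = ⊤)
    (hfaith : ∀ x ∈ P, ρ x = 1 → x = 1) : ∀ v : E, (∀ z ∈ P, ρ z v = v) → v = 0 := by
  let N : Submodule (ZMod 2) E :=
    { carrier := {v | ∀ z ∈ P, ρ z v = v}
      add_mem' := fun {u v} hu hv z hz => by rw [map_add, hu z hz, hv z hz]
      zero_mem' := fun z _ => map_zero _
      smul_mem' := fun c v hv z hz => by rw [map_smul, hv z hz] }
  have hN : ∀ s : S, ∀ m ∈ N, ρ s m ∈ N := by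
    intro s m hm z hz
    have h1 : s⁻¹ * z * s ∈ P := by
      have := hPN.conj_mem z hz s⁻¹
      rwa [inv_inv] at this
    have h2 := hm _ h1
    have h3 : ρ z (ρ s m) = ρ s (ρ (s⁻¹ * z * s) m) := by
      rw [← Module.End.mul_apply, ← Module.End.mul_apply, ← map_mul, ← map_mul]
      congr 2
      group
    rw [h3, h2]
  rcases hirr N hN with h | h
  · intro v hv
    have : v ∈ N := hv
    rw [h, Submodule.mem_bot] at this
    exact this
  · exfalso
    apply hP1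
    rw [eq_bot_iff]
    intro x hx
    rw [Subgroup.mem_bot]
    apply hfaith x hx
    ext v
    have : v ∈ N := by rw [h]; trivial
    exact this x hx

end Cfsg.Agent.Lib.H24TNGrp
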