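import Mathlib
import Cfsg.Agent.Lib.H24FMDefs
import Cfsg.Agent.Lib.H24TNDefs


set_option autoImplicit false

/-! PROJECT 4414 = TN (row S4414), piece `Loc`: three local lemmas (group theory in S; D ≤ P of index p). -/

namespace Cfsg.Agent.Lib.H24TNLoc

open Cfsg.Agent.Lib.H24FMDefs Cfsg.Agent.Lib.H24TNDefs

theorem eq_or_eq_of_prime {S : Type*} [Group S] [Finite S] {p : ℕ} (hp : p.Prime)
    {D M P : Subgroup S} (hDM : D ≤ M) (hMP : M ≤ P) (hDc : Nat.card D * p = Nat.card P) :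
    M = D ∨ M = P := by
  obtain ⟨k, hk⟩ := Subgroup.card_dvd_of_le hDM
  have h2 : Nat.card M ∣ Nat.card P := Subgroup.card_dvd_of_le hMP
  rw [hk, ← hDc] at h2
  have hDpos : 0 < Nat.card D := Nat.card_pos
  have h3 : k ∣ p := Nat.dvd_of_mul_dvd_mul_left hDpos h2
  rcases (Nat.dvd_prime hp).mp h3 with h | h
  · left
    subst h
    exact (Subgroup.eq_of_le_of_card_ge hDM (by omega)).symm
  · right
    subst h
    exact Subgroup.eq_of_le_of_card_ge hMP (by omega)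

variable {S E : Type*} [Group S] [Finite S] [AddCommGroup E] [Module (ZMod 2) E]
  {ρ : Representation (ZMod 2) S E} {P X : Subgroup S} {y : S} {p q : ℕ}

theorem b0_two (hc : Ctx ρ P X y p q) (D : Subgroup S) (hD : D ≤ P)
    (hDc : Nat.card D * p = Nat.card P) (B0 : Subgroup S) (hK : B0 ≤ X ⊔ Subgroup.zpowers y)
    (hcen : ∀ b ∈ B0, ∀ z ∈ P, b * z * b⁻¹ * z⁻¹ ∈ D) : IsPGroup 2 B0 := by
  haveI : Fact (Nat.Prime 2) := ⟨Nat.prime_two⟩
  haveI : Fact q.Prime := ⟨hc.qp⟩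
  have h1 : Nat.card B0 ∣ Nat.card X * q := hc.Kcard ▸ Subgroup.card_dvd_of_le hK
  obtain ⟨a, ha⟩ := IsPGroup.iff_card.mp hc.X2
  have hq : ¬ q ∣ Nat.card B0 := by
    intro hq
    obtain ⟨g, hg⟩ := exists_prime_orderOf_dvd_card' q hq
    have hg' : orderOf (g : S) = q := by rw [Subgroup.orderOf_coe]; exact hg
    let φ : P → D := fun z => ⟨(g : S) * z * (g : S)⁻¹ * (z : S)⁻¹, hcen g g.2 z z.2⟩
    have hφ : Function.Injective φ := by
      intro z z' hzz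
      have h2 : (g : S) * z * (g : S)⁻¹ * (z : S)⁻¹ = (g : S) * z' * (g : S)⁻¹ * (z' : S)⁻¹ :=
        congrArg Subtype.val hzz
      have h3 : (g : S) * ((z' : S)⁻¹ * z) = ((z' : S)⁻¹ * z) * g := by
        have h4 : ((g : S) * z' * (g : S)⁻¹)⁻¹ * ((g : S) * z * (g : S)⁻¹) = (z' : S)⁻¹ * z := by
          have h5 : (g : S) * z * (g : S)⁻¹ = (g : S) * z' * (g : S)⁻¹ * (z' : S)⁻¹ * z := by
            rw [← h2]; group
          rw [h5]; group
        have h6 : ((g : S) * z' * (g : S)⁻¹)⁻¹ * ((g : S) * z * (g : S)⁻¹)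
            = (g : S) * ((z' : S)⁻¹ * z) * (g : S)⁻¹ := by group
        rw [h6] at h4
        calc (g : S) * ((z' : S)⁻¹ * z) = ((g : S) * ((z' : S)⁻¹ * z) * (g : S)⁻¹) * g := by group
          _ = ((z' : S)⁻¹ * z) * g := by rw [h4]
      have h7 := hc.fpf g hg' _ (P.mul_mem (P.inv_mem z'.2) z.2) h3
      have h8 : (z : S) = z' := by
        have := inv_mul_eq_one.mp h7
        exact this.symm
      exact Subtype.ext h8
    have h9 : Nat.card P ≤ Nat.card D := Nat.card_le_card_of_injective φ hφ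
    have hDpos : 0 < Nat.card D := Nat.card_pos
    have hp2 := hc.pp.two_le
    have : Nat.card D * 2 ≤ Nat.card D * p := Nat.mul_le_mul_left _ hp2
    omega
  have hcop : Nat.Coprime (Nat.card B0) q := ((Nat.Prime.coprime_iff_not_dvd hc.qp).mpr hq).symm
  have h10 : Nat.card B0 ∣ Nat.card X := hcop.dvd_of_dvd_mul_right h1
  rw [ha] at h10
  obtain ⟨b, _, hb⟩ := (Nat.dvd_prime_pow Nat.prime_two).mp h10
  exact IsPGroup.of_card hb

theorem ker_eq (hc : Ctx ρ P X y p q) (D : Subgroup S) (hD : D ≤ P)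
    (hDc : Nat.card D * p = Nat.card P) (V : Submodule (ZMod 2) E) (hV0 : V ≠ ⊥)
    (hDV : ∀ d ∈ D, ∀ v ∈ V, ρ d v = v) : ∀ z ∈ P, (∀ v ∈ V, ρ z v = v) → z ∈ D := by
  let Ker : Subgroup S :=
    { carrier := {z | z ∈ P ∧ ∀ v ∈ V, ρ z v = v}
      one_mem' := ⟨P.one_mem, fun v _ => by simp⟩
      mul_mem' := by
        rintro a b ⟨ha, ha'⟩ ⟨hb, hb'⟩
        refine ⟨P.mul_mem ha hb, fun v hv => ?_⟩
        rw [map_mul, Module.End.mul_apply, hb' v hv, ha' v hv]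
      inv_mem' := by
        rintro a ⟨ha, ha'⟩
        refine ⟨P.inv_mem ha, fun v hv => ?_⟩
        calc ρ a⁻¹ v = ρ a⁻¹ (ρ a v) := by rw [ha' v hv]
          _ = (ρ a⁻¹ * ρ a) v := rfl
          _ = v := by rw [rep_inv_mul]; rfl }
  have h1 : D ≤ Ker := fun d hd => ⟨hD hd, hDV d hd⟩
  have h2 : Ker ≤ P := fun z hz => hz.1
  intro z hz hzV
  have hzK : z ∈ Ker := ⟨hz, hzV⟩
  rcases eq_or_eq_of_prime hc.pp h1 h2 hDc with h | h
  · rw [h] at hzK; exact hzK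
  · exfalso
    apply hV0
    rw [eq_bot_iff]
    intro v hv
    rw [Submodule.mem_bot]
    apply hc.CP
    intro w hw
    have : w ∈ Ker := by rw [h]; exact hw
    exact this.2 v hv

theorem cen_of_one (hc : Ctx ρ P X y p q) (D : Subgroup S) (hD : D ≤ P)
    (hDc : Nat.card D * p = Nat.card P) (h : S) (hh : cj h D = D) (f : S) (hf : f ∈ P)
    (hfD : f ∉ D) (hcf : h * f * h⁻¹ * f⁻¹ ∈ D) : ∀ z ∈ P, h * z * h⁻¹ * z⁻¹ ∈ D := by
  have hPn := hc.Pn
  have hconj : ∀ z ∈ P, h * z * h⁻¹ ∈ P := fun z hz => hPn.conj_mem z hz h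
  let M : Subgroup S :=
    { carrier := {z | z ∈ P ∧ h * z * h⁻¹ * z⁻¹ ∈ D}
      one_mem' := ⟨P.one_mem, by simp⟩
      mul_mem' := by
        rintro a b ⟨ha, ha'⟩ ⟨hb, hb'⟩
        refine ⟨P.mul_mem ha hb, ?_⟩
        have e : h * (a * b) * h⁻¹ * (a * b)⁻¹ = (h * a * h⁻¹ * a⁻¹) * (h * b * h⁻¹ * b⁻¹) := by
          have hcm := hc.Pcomm (h * b * h⁻¹ * b⁻¹) (hD hb') a⁻¹ (P.inv_mem ha)
          calc h * (a * b) * h⁻¹ * (a * b)⁻¹ = h * a * h⁻¹ * ((h * b * h⁻¹ * b⁻¹) * a⁻¹) := by group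
            _ = h * a * h⁻¹ * (a⁻¹ * (h * b * h⁻¹ * b⁻¹)) := by rw [hcm]
            _ = _ := by group
        rw [e]
        exact D.mul_mem ha' hb'
      inv_mem' := by
        rintro a ⟨ha, ha'⟩
        refine ⟨P.inv_mem ha, ?_⟩
        have e : h * a⁻¹ * h⁻¹ * a⁻¹⁻¹ = (h * a * h⁻¹ * a⁻¹)⁻¹ := by
          have hcm := hc.Pcomm (h * a * h⁻¹)⁻¹ (P.inv_mem (hconj a ha)) a ha
          calc h * a⁻¹ * h⁻¹ * a⁻¹⁻¹ = (h * a * h⁻¹)⁻¹ * a := by group
            _ = a * (h * a * h⁻¹)⁻¹ := hcm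
            _ = _ := by group
        rw [e]
        exact D.inv_mem ha' }
  have h1 : D ≤ M := by
    intro d hd
    refine ⟨hD hd, ?_⟩
    have : h * d * h⁻¹ ∈ cj h D := by
      rw [mem_cj]
      have e : h⁻¹ * (h * d * h⁻¹) * h = d := by group
      rw [e]; exact hd
    rw [hh] at this
    exact D.mul_mem this (D.inv_mem hd)
  have h2 : M ≤ P := fun z hz => hz.1
  have hfM : f ∈ M := ⟨hf, hcf⟩
  rcases eq_or_eq_of_prime hc.pp h1 h2 hDc with h3 | h3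
  · rw [h3] at hfM; exact absurd hfM hfD
  · intro z hz
    have : z ∈ M := by rw [h3]; exact hz
    exact this.2

end Cfsg.Agent.Lib.H24TNLoc
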