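import Mathlib
import Cfsg.Agent.Lib.H24FMDefs
import Cfsg.Agent.Lib.H24TNDefs
import Cfsg.Agent.Lib.H24FMMain

set_option autoImplicit false

/-! PROJECT 4414 = TN (row S4414), piece `MainQ`.  Keep file name, namespace, theorem names and statements; extra helper lemmas are fine.

mainQ: the free module theorem `H24FMMain.main` (LANDED) for a NON FAITHFUL action: apply it to the image group.
A'' := ↥(ρ.asGroupHom.range) (a finite group; `Representation.asGroupHom : A →* (Module.End k V)ˣ`, `asGroupHom_apply`), π := ρ.asGroupHom.rangeRestrict : A →* A'', τ : Representation k A'' V := (Units.coeHom _).comp (Subgroup.subtype _), so τ (π g) = ρ g.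
F'' := F.map π, H'' := Hc.map π.  F'' is nilpotent (image of a nilpotent group: `Group.nilpotent_of_surjective` for F → F''), #F'' ∣ #F (`Subgroup.card_map_dvd`/first iso), so (#F'' : k) ≠ 0.  H'' normalizes F''.
fpf: h'' = π h ≠ 1, f'' = π f with h'' f'' = f'' h'': then ρ h * ρ f = ρ f * ρ h, so ρ h = 1 (then h'' = 1, no) or ρ f = 1 (f'' = 1).  C_V(F'') = 0 from hCF.  `main` gives W with V = ⊕_{c ∈ H''} τ c W (HFree).
T := the image Finset of H'' under c ↦ τ c (injective: τ is injective on A''); reindex iSupIndep and iSup along the bijection H'' ≃ T (`iSupIndep.comp`/`Equiv.iSup_comp`, `iSupIndep_equiv`...). -/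

namespace Cfsg.Agent.Lib.H24TNMainQ

open Cfsg.Agent.Lib.H24FMDefs Cfsg.Agent.Lib.H24TNDefs

theorem mainQ {k V A : Type*} [Field k] [AddCommGroup V] [Module k V] [FiniteDimensional k V]
    [Group A] [Finite A] (ρ : Representation k A V) (F Hc : Subgroup A)
    (hnil : Group.IsNilpotent ↥F) (hcard : (Nat.card F : k) ≠ 0)
    (hHF : ∀ h ∈ Hc, ∀ f ∈ F, h * f * h⁻¹ ∈ F)
    (hfpf : ∀ h ∈ Hc, ∀ f ∈ F, ρ h * ρ f = ρ f * ρ h → ρ h = 1 ∨ ρ f = 1)
    (hCF : ∀ v : V, (∀ f ∈ F, ρ f v = v) → v = 0) :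
    ∃ (W : Submodule k V) (T : Finset (Module.End k V)), (∀ t, t ∈ T ↔ ∃ h ∈ Hc, t = ρ h) ∧
      iSupIndep (fun t : T => W.map (t : Module.End k V)) ∧
      ⨆ t : T, W.map (t : Module.End k V) = ⊤ := by
  classical
  let φ : A →* (Module.End k V)ˣ := ρ.asGroupHom
  let π : A →* ↥φ.range := φ.rangeRestrict
  have hfin : Finite ↥φ.range := Finite.of_surjective π φ.rangeRestrict_surjective
  let τ : Representation k ↥φ.range V := (Units.coeHom (Module.End k V)).comp (Subgroup.subtype φ.range)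
  have hτπ : ∀ g : A, τ (π g) = ρ g := fun g => rfl
  have hτinj : Function.Injective τ := by
    intro a b hab
    apply Subtype.ext
    apply Units.ext
    exact hab
  have hπ1 : ∀ g : A, ρ g = 1 → π g = 1 := by
    intro g hg
    apply hτinj
    rw [hτπ, hg, map_one]
  have hnil' : Group.IsNilpotent ↥(F.map π) :=
    Group.nilpotent_of_surjective (π.subgroupMap F) (MonoidHom.subgroupMap_surjective _ _)
  have hcard' : (Nat.card ↥(F.map π) : k) ≠ 0 := by
    obtain ⟨c, hc⟩ := Subgroup.card_map_dvd F π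
    intro h0
    apply hcard
    rw [hc, Nat.cast_mul, h0, zero_mul]
  have hmain := Cfsg.Agent.Lib.H24FMMain.main τ (F.map π) (Hc.map π) hnil' hcard'
    (by
      rintro _ ⟨h, hh, rfl⟩ _ ⟨f, hf, rfl⟩
      exact ⟨h * f * h⁻¹, hHF h hh f hf, by simp⟩)
    (by
      rintro _ ⟨h, hh, rfl⟩ hne _ ⟨f, hf, rfl⟩ hcomm
      have h1 : ρ h * ρ f = ρ f * ρ h := by
        have := congrArg τ hcomm
        rwa [map_mul, map_mul, hτπ, hτπ] at this
      rcases hfpf h hh f hf h1 with h2 | h2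
      · exact absurd (hπ1 h h2) hne
      · exact hπ1 f h2)
    (by
      intro v hv
      exact hCF v (fun f hf => hv (π f) ⟨f, hf, rfl⟩))
  obtain ⟨W, hind, hsup⟩ := hmain
  have : Fintype ↥(Hc.map π) := Fintype.ofFinite _
  let T : Finset (Module.End k V) := Finset.univ.image (fun c : ↥(Hc.map π) => τ (c : ↥φ.range))
  have hT : ∀ t, t ∈ T ↔ ∃ h ∈ Hc, t = ρ h := by
    intro t
    constructor
    · intro ht
      obtain ⟨c, -, rfl⟩ := Finset.mem_image.1 ht
      obtain ⟨h, hh, hc⟩ := c.2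
      exact ⟨h, hh, by rw [← hc, hτπ]⟩
    · rintro ⟨h, hh, rfl⟩
      exact Finset.mem_image.2 ⟨⟨π h, ⟨h, hh, rfl⟩⟩, Finset.mem_univ _, rfl⟩
  let e : ↥(Hc.map π) ≃ T := Equiv.ofBijective
    (fun c => ⟨τ (c : ↥φ.range), Finset.mem_image.2 ⟨c, Finset.mem_univ _, rfl⟩⟩)
    ⟨fun a b hab => Subtype.ext (hτinj (congrArg Subtype.val hab)), fun t => by
      obtain ⟨c, -, hc⟩ := Finset.mem_image.1 t.2
      exact ⟨c, Subtype.ext hc⟩⟩
  have he : ∀ c : ↥(Hc.map π), ((e c : T) : Module.End k V) = τ (c : ↥φ.range) := fun c => rfl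
  refine ⟨W, T, hT, ?_, ?_⟩
  · have h1 := hind.comp e.symm.injective
    have h2 : ((fun h : ↥(Hc.map π) => W.map ((τ.comp (Hc.map π).subtype) h)) ∘ e.symm)
        = fun t : T => W.map (t : Module.End k V) := by
      funext t
      have h3 := he (e.symm t)
      rw [Equiv.apply_symm_apply] at h3
      show W.map (τ ((e.symm t : ↥(Hc.map π)) : ↥φ.range)) = _
      rw [← h3]
    rwa [h2] at h1
  · rw [← hsup, ← Equiv.iSup_comp e]
    rfl

end Cfsg.Agent.Lib.H24TNMainQ
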