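import Mathlib
import Cfsg.Agent.Lib.H24FMDefs
import Cfsg.Agent.Lib.H24TNDefs
import Cfsg.Agent.Lib.H24TNMainQ
import Cfsg.Agent.Lib.H24TNCount

set_option autoImplicit false

/-! PROJECT 4414 = TN (row S4414), piece `SecFree`.  Keep file name, namespace, theorem names and statements; extra helper lemmas are fine.

secFree: MainQ.mainQ + Count.count for the action of N := F ⊔ Hc on an invariant subspace V of E.
V is invariant under N (`Subgroup.closure_induction` / `Subgroup.sup_induction`-style; or take N := the subgroup {g | ∀ v ∈ V, ρ g v ∈ V ∧ ρ g⁻¹ v ∈ V}, which contains F and Hc: EASIER).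
σ : Representation (ZMod 2) ↥N ↥V, σ g := (ρ g).restrict (..) (`LinearMap.restrict`; map_one', map_mul' by `LinearMap.ext`/`Subtype.ext`).  Apply mainQ to σ, F.subgroupOf N, Hc.subgroupOf N:
nilpotent (`Subgroup.subgroupOfEquivOfLe` + `Group.nilpotent_of_mulEquiv`), card (`Nat.card_congr`; odd ⇒ ≠ 0 in ZMod 2), the other hypotheses translate pointwise (σ g = 1 ↔ ∀ v ∈ V, ρ g v = v).
↥V is finite, nontrivial (hV0), finite dimensional.  Then count with X.subgroupOf N and ⟨y, _⟩.  Finally {v : ↥V // ∀ x ∈ X.subgroupOf N, σ x v = v} ≃ {v : E // v ∈ V ∧ ∀ x ∈ X, ρ x v = v} (`Nat.card_congr`). -/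

namespace Cfsg.Agent.Lib.H24TNSecFree

open Cfsg.Agent.Lib.H24FMDefs Cfsg.Agent.Lib.H24TNDefs

/-- the stabilizer of the subspace `V` -/
def stabV {S E : Type*} [Group S] [AddCommGroup E] [Module (ZMod 2) E]
    (ρ : Representation (ZMod 2) S E) (V : Submodule (ZMod 2) E) : Subgroup S where
  carrier := {g | ∀ v ∈ V, ρ g v ∈ V ∧ ρ g⁻¹ v ∈ V}
  one_mem' := by
    intro v hv
    simp [hv]
  mul_mem' := by
    intro a b ha hb v hv
    constructor
    · rw [map_mul]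
      exact (ha _ (hb v hv).1).1
    · rw [mul_inv_rev, map_mul]
      exact (hb _ (ha v hv).2).2
  inv_mem' := by
    intro a ha v hv
    rw [inv_inv]
    exact ⟨(ha v hv).2, (ha v hv).1⟩

/-- the action of the stabilizer on `V` -/
def resV {S E : Type*} [Group S] [AddCommGroup E] [Module (ZMod 2) E]
    (ρ : Representation (ZMod 2) S E) (V : Submodule (ZMod 2) E) :
    Representation (ZMod 2) ↥(stabV ρ V) ↥V where
  toFun g := (ρ (g : S)).restrict (fun v hv => (g.2 v hv).1)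
  map_one' := by
    ext v
    simp
  map_mul' := by
    intro a b
    ext v
    simp

theorem resV_coe {S E : Type*} [Group S] [AddCommGroup E] [Module (ZMod 2) E]
    (ρ : Representation (ZMod 2) S E) (V : Submodule (ZMod 2) E) (g : ↥(stabV ρ V)) (v : ↥V) :
    ((resV ρ V g v : ↥V) : E) = ρ (g : S) (v : E) := rfl

theorem secFree {S E : Type*} [Group S] [Finite S] [AddCommGroup E] [Module (ZMod 2) E] [Finite E]
    (ρ : Representation (ZMod 2) S E) (V : Submodule (ZMod 2) E) (F Hc X : Subgroup S) (y : S)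
    (q : ℕ) (hV0 : V ≠ ⊥)
    (hFV : ∀ f ∈ F, ∀ v ∈ V, ρ f v ∈ V) (hHV : ∀ h ∈ Hc, ∀ v ∈ V, ρ h v ∈ V)
    (hnil : Group.IsNilpotent ↥F) (hodd : Odd (Nat.card F))
    (hHF : ∀ h ∈ Hc, ∀ f ∈ F, h * f * h⁻¹ ∈ F)
    (hfpf : ∀ h ∈ Hc, ∀ f ∈ F, (∀ v ∈ V, ρ h (ρ f v) = ρ f (ρ h v)) →
      (∀ v ∈ V, ρ h v = v) ∨ (∀ v ∈ V, ρ f v = v))
    (hCF : ∀ v ∈ V, (∀ f ∈ F, ρ f v = v) → v = 0)
    (hXH : X ≤ Hc) (hX : IsPGroup 2 X) (hyH : y ∈ Hc) (hq : q.Prime) (hq2 : q ≠ 2)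
    (hyq : y ^ q = 1) (hy1 : ∃ v ∈ V, ρ y v ≠ v) :
    8 ≤ Nat.card {v : E // v ∈ V ∧ ∀ x ∈ X, ρ x v = v} := by
  have hFN : F ≤ stabV ρ V := fun f hf v hv => ⟨hFV f hf v hv, hFV f⁻¹ (F.inv_mem hf) v hv⟩
  have hHN : Hc ≤ stabV ρ V := fun f hf v hv => ⟨hHV f hf v hv, hHV f⁻¹ (Hc.inv_mem hf) v hv⟩
  have hXN : X ≤ stabV ρ V := hXH.trans hHN
  have hone : ∀ g : ↥(stabV ρ V), (∀ v ∈ V, ρ (g : S) v = v) → resV ρ V g = 1 := by
    intro g hg
    ext v
    exact hg v v.2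
  have hntr : Nontrivial ↥V := Submodule.nontrivial_iff_ne_bot.2 hV0
  have hnil' : Group.IsNilpotent ↥(F.subgroupOf (stabV ρ V)) :=
    Group.nilpotent_of_mulEquiv (Subgroup.subgroupOfEquivOfLe hFN).symm
  have hcard' : ((Nat.card ↥(F.subgroupOf (stabV ρ V)) : ℕ) : ZMod 2) ≠ 0 := by
    rw [Nat.card_congr (Subgroup.subgroupOfEquivOfLe hFN).toEquiv, ne_eq,
      ZMod.natCast_eq_zero_iff]
    intro h2
    exact (Nat.not_even_iff_odd.2 hodd) (even_iff_two_dvd.2 h2)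
  obtain ⟨W, T, hT, hind, hsup⟩ := Cfsg.Agent.Lib.H24TNMainQ.mainQ (resV ρ V)
    (F.subgroupOf (stabV ρ V)) (Hc.subgroupOf (stabV ρ V)) hnil' hcard'
    (by
      intro h hh f hf
      exact hHF h hh f hf)
    (by
      intro h hh f hf hcomm
      have h1 : ∀ v ∈ V, ρ (h : S) (ρ (f : S) v) = ρ (f : S) (ρ (h : S) v) := by
        intro v hv
        have h2 := congrArg (fun t : Module.End (ZMod 2) ↥V => ((t ⟨v, hv⟩ : ↥V) : E)) hcomm
        exact h2
      rcases hfpf h hh f hf h1 with h3 | h3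
      · exact Or.inl (hone h h3)
      · exact Or.inr (hone f h3))
    (by
      intro v hv
      apply Subtype.ext
      exact hCF v v.2 (fun f hf => congrArg Subtype.val (hv ⟨f, hFN hf⟩ hf)))
  have hcount := Cfsg.Agent.Lib.H24TNCount.count (resV ρ V) (Hc.subgroupOf (stabV ρ V))
    (X.subgroupOf (stabV ρ V)) W T hT hind hsup (fun x hx => hXH hx) hX.comap_subtype
    ⟨y, hHN hyH⟩ hyH q hq hq2 (Subtype.ext (by simpa using hyq))
    (by
      intro h1
      obtain ⟨v, hv, hne⟩ := hy1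
      apply hne
      have h2 := congrArg (fun t : Module.End (ZMod 2) ↥V => ((t ⟨v, hv⟩ : ↥V) : E)) h1
      exact h2)
  refine hcount.trans (le_of_eq (Nat.card_congr ?_))
  exact
    { toFun := fun v => ⟨(v.1 : E), v.1.2, fun x hx => congrArg Subtype.val (v.2 ⟨x, hXN hx⟩ hx)⟩
      invFun := fun v => ⟨⟨v.1, v.2.1⟩, fun x hx => Subtype.ext (v.2.2 x hx)⟩
      left_inv := fun v => rfl
      right_inv := fun v => rfl }

end Cfsg.Agent.Lib.H24TNSecFree
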