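import Mathlib
import Cfsg.Agent.Lib.H24FMDefs
import Cfsg.Agent.Lib.H24TNDefs
import Cfsg.Agent.Lib.H24FMFixP
import Cfsg.Agent.Lib.H24TNAvgC
import Cfsg.Agent.Lib.H24TNSecFree
import Cfsg.Agent.Lib.H24TNLoc

set_option autoImplicit false

/-! PROJECT 4414 = TN (row S4414), piece `Sec8`: assembly of case A (y normalizes D, C_E(D) ≠ 0). -/

namespace Cfsg.Agent.Lib.H24TNSec8

open Cfsg.Agent.Lib.H24FMDefs Cfsg.Agent.Lib.H24TNDefs

theorem cj_key {S : Type*} [Group S] {D : Subgroup S} {a : S} (ha : cj a D = D) (w : S) :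
    w ∈ D ↔ a⁻¹ * w * a ∈ D := by
  rw [← mem_cj, ha]

/-- the normalizer of `D`, in terms of `cj` -/
def ND {S : Type*} [Group S] (D : Subgroup S) : Subgroup S where
  carrier := {b | cj b D = D}
  one_mem' := by
    show cj 1 D = D
    ext x
    rw [mem_cj]
    simp
  mul_mem' := by
    intro a b ha hb
    show cj (a * b) D = D
    ext x
    rw [mem_cj]
    have h : (a * b)⁻¹ * x * (a * b) = b⁻¹ * (a⁻¹ * x * a) * b := by group
    rw [h, ← cj_key hb, ← cj_key ha]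
  inv_mem' := by
    intro a ha
    show cj a⁻¹ D = D
    ext x
    rw [mem_cj, cj_key ha]
    have h : a⁻¹ * (a⁻¹⁻¹ * x * a⁻¹) * a = x := by group
    rw [h]

theorem mem_ND {S : Type*} [Group S] (D : Subgroup S) (b : S) : b ∈ ND D ↔ cj b D = D := Iff.rfl

theorem ND_conj {S : Type*} [Group S] {D : Subgroup S} {b : S} (hb : b ∈ ND D) {d : S}
    (hd : d ∈ D) : b * d * b⁻¹ ∈ D := by
  have h := (cj_key ((mem_ND D b⁻¹).1 ((ND D).inv_mem hb)) d).1 hd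
  rwa [inv_inv] at h

theorem ND_conj' {S : Type*} [Group S] {D : Subgroup S} {b : S} (hb : b ∈ ND D) {d : S}
    (hd : d ∈ D) : b⁻¹ * d * b ∈ D :=
  (cj_key ((mem_ND D b).1 hb) d).1 hd

/-- `C_B(P/D)` -/
def B0 {S : Type*} [Group S] (B P D : Subgroup S) (hB : B ≤ ND D) : Subgroup S where
  carrier := {b | b ∈ B ∧ ∀ z ∈ P, b * z * b⁻¹ * z⁻¹ ∈ D}
  one_mem' := ⟨B.one_mem, fun z _ => by simp⟩
  mul_mem' := by
    rintro b c ⟨hb, hb'⟩ ⟨hc, hc'⟩
    refine ⟨B.mul_mem hb hc, fun z hz => ?_⟩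
    have h : b * c * z * (b * c)⁻¹ * z⁻¹ = b * (c * z * c⁻¹ * z⁻¹) * b⁻¹ * (b * z * b⁻¹ * z⁻¹) := by
      group
    rw [h]
    exact D.mul_mem (ND_conj (hB hb) (hc' z hz)) (hb' z hz)
  inv_mem' := by
    rintro b ⟨hb, hb'⟩
    refine ⟨B.inv_mem hb, fun z hz => ?_⟩
    have h : b⁻¹ * z * b⁻¹⁻¹ * z⁻¹ = b⁻¹ * (b * z * b⁻¹ * z⁻¹)⁻¹ * b := by group
    rw [h]
    exact ND_conj' (hB hb) (D.inv_mem (hb' z hz))

theorem sec8 {S E : Type*} [Group S] [Finite S] [AddCommGroup E] [Module (ZMod 2) E] [Finite E]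
    {ρ : Representation (ZMod 2) S E} {P X : Subgroup S} {y : S} {p q : ℕ} (hc : Ctx ρ P X y p q)
    (D : Subgroup S) (hD : D ≤ P) (hDc : Nat.card D * p = Nat.card P) (hne : avg ρ D ≠ 0)
    (hy : cj y D = D) :
    8 ≤ Nat.card {v : E // avg ρ D v = v ∧ ∀ x ∈ X, cj x D = D → ρ x v = v} := by
  have hmul : ∀ (a b : S) (v : E), ρ (a * b) v = ρ a (ρ b v) := fun a b v => by
    rw [map_mul]; rfl
  have hone : ∀ v : E, ρ 1 v = v := fun v => by rw [map_one]; rfl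
  have hinvl : ∀ (a : S) (v : E), ρ a⁻¹ (ρ a v) = v := fun a v => by
    rw [← hmul, inv_mul_cancel, hone]
  have hinvr : ∀ (a : S) (v : E), ρ a (ρ a⁻¹ v) = v := fun a v => by
    rw [← hmul, mul_inv_cancel, hone]
  have hcardne : (Nat.card D : ZMod 2) ≠ 0 :=
    H24TNAvgC.card_ne P D p hc.pp hc.p2 hc.Pcard hDc
  have hPn := hc.Pn
  set K : Subgroup S := X ⊔ Subgroup.zpowers y with hK
  set B : Subgroup S := K ⊓ ND D with hBdef
  have hBN : B ≤ ND D := inf_le_right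
  set C : Subgroup S := B0 B P D hBN with hC
  have hCB : C ≤ B := fun b hb => hb.1
  have hCcen : ∀ b ∈ C, ∀ z ∈ P, b * z * b⁻¹ * z⁻¹ ∈ D := fun b hb => hb.2
  have hC2 : IsPGroup 2 C :=
    H24TNLoc.b0_two hc D hD hDc C (fun b hb => (hCB hb).1) hCcen
  -- the fixed space of `D`
  let M : Submodule (ZMod 2) E :=
    { carrier := {v | ∀ d ∈ D, ρ d v = v}
      add_mem' := by
        intro a b ha hb d hd
        rw [map_add, ha d hd, hb d hd]
      zero_mem' := by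
        intro d _
        rw [map_zero]
      smul_mem' := by
        intro c v hv d hd
        rw [map_smul, hv d hd] }
  have hMmem : ∀ v, v ∈ M ↔ ∀ d ∈ D, ρ d v = v := fun v => Iff.rfl
  have hM0 : M ≠ ⊥ := by
    intro hbot
    apply hne
    ext v
    have h1 : avg ρ D (avg ρ D v) = avg ρ D v := by
      have := H24FMAvg.avg_idem ρ hcardne
      exact congrArg (fun f => f v) this
    have h2 : avg ρ D v ∈ M := (H24TNAvgC.avg_fix_iff ρ D hcardne _).1 h1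
    rw [hbot, Submodule.mem_bot] at h2
    rw [h2]; rfl
  have hMinv : ∀ b ∈ ND D, ∀ v ∈ M, ρ b v ∈ M := by
    intro b hb v hv d hd
    have h : d * b = b * (b⁻¹ * d * b) := by group
    rw [← hmul, h, hmul, hv _ (ND_conj' hb hd)]
  obtain ⟨v0, hv0M, hv00, hv0C⟩ := H24FMFixP.exists_fixed 2 ρ C hC2 M hM0
    (fun x hx v hv => hMinv x (hBN (hCB hx)) v hv)
  let V : Submodule (ZMod 2) E :=
    { carrier := {v | (∀ d ∈ D, ρ d v = v) ∧ ∀ b ∈ C, ρ b v = v}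
      add_mem' := by
        rintro a b ⟨ha, ha'⟩ ⟨hb, hb'⟩
        exact ⟨fun d hd => by rw [map_add, ha d hd, hb d hd],
          fun d hd => by rw [map_add, ha' d hd, hb' d hd]⟩
      zero_mem' := ⟨fun d _ => by rw [map_zero], fun d _ => by rw [map_zero]⟩
      smul_mem' := by
        rintro c v ⟨hv, hv'⟩
        exact ⟨fun d hd => by rw [map_smul, hv d hd], fun d hd => by rw [map_smul, hv' d hd]⟩ }
  have hV0 : V ≠ ⊥ := by
    intro hbot
    have h : v0 ∈ V := ⟨hv0M, hv0C⟩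
    rw [hbot, Submodule.mem_bot] at h
    exact hv00 h
  have hDV : ∀ d ∈ D, ∀ v ∈ V, ρ d v = v := fun d hd v hv => hv.1 d hd
  have hCV : ∀ b ∈ C, ∀ v ∈ V, ρ b v = v := fun d hd v hv => hv.2 d hd
  have hPV : ∀ f ∈ P, ∀ v ∈ V, ρ f v ∈ V := by
    intro z hz v hv
    refine ⟨fun d hd => ?_, fun b hb => ?_⟩
    · rw [← hmul, hc.Pcomm d (hD hd) z hz, hmul, hv.1 d hd]
    · have hd : b⁻¹ * z⁻¹ * b⁻¹⁻¹ * z⁻¹⁻¹ ∈ D := hCcen b⁻¹ (C.inv_mem hb) z⁻¹ (P.inv_mem hz)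
      have h : b * z = z * (b * (b⁻¹ * z⁻¹ * b⁻¹⁻¹ * z⁻¹⁻¹)) := by group
      rw [← hmul, h, hmul, hmul, hv.1 _ hd, hv.2 b hb]
  have hCnorm : ∀ c ∈ B, ∀ b ∈ C, c⁻¹ * b * c ∈ C := by
    intro c hcB b hb
    refine ⟨B.mul_mem (B.mul_mem (B.inv_mem hcB) (hCB hb)) hcB, fun z hz => ?_⟩
    have hz' : c * z * c⁻¹ ∈ P := hPn.conj_mem z hz c
    have h : c⁻¹ * b * c * z * (c⁻¹ * b * c)⁻¹ * z⁻¹
        = c⁻¹ * (b * (c * z * c⁻¹) * b⁻¹ * (c * z * c⁻¹)⁻¹) * c := by group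
    rw [h]
    exact ND_conj' (hBN hcB) (hCcen b hb _ hz')
  have hBV : ∀ h ∈ B, ∀ v ∈ V, ρ h v ∈ V := by
    intro c hcB v hv
    refine ⟨hMinv c (hBN hcB) v hv.1, fun b hb => ?_⟩
    have h : b * c = c * (c⁻¹ * b * c) := by group
    rw [← hmul, h, hmul, hv.2 _ (hCnorm c hcB b hb)]
  have hyB : y ∈ B :=
    ⟨(le_sup_right : Subgroup.zpowers y ≤ K) (Subgroup.mem_zpowers y), hy⟩
  have hker := H24TNLoc.ker_eq hc D hD hDc V hV0 hDV
  have hnil : Group.IsNilpotent ↥P := by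
    let _ : CommGroup ↥P :=
      { (inferInstance : Group ↥P) with
        mul_comm := fun a b => Subtype.ext (hc.Pcomm a a.2 b b.2) }
    exact CommGroup.isNilpotent
  have hpodd : Odd p := hc.pp.odd_of_ne_two hc.p2
  have hodd : Odd (Nat.card P) := by
    rcases hc.Pcard with h | h
    · rw [h]; exact hpodd
    · rw [h]; exact hpodd.pow
  have hfpf : ∀ h ∈ B, ∀ f ∈ P, (∀ v ∈ V, ρ h (ρ f v) = ρ f (ρ h v)) →
      (∀ v ∈ V, ρ h v = v) ∨ (∀ v ∈ V, ρ f v = v) := by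
    intro h hh f hf hcomm
    by_cases hfV : ∀ v ∈ V, ρ f v = v
    · exact Or.inr hfV
    · left
      have hfD : f ∉ D := fun hfD => hfV (hDV f hfD)
      have hcP : h * f * h⁻¹ * f⁻¹ ∈ P := P.mul_mem (hPn.conj_mem f hf h) (P.inv_mem hf)
      have hcV : ∀ v ∈ V, ρ (h * f * h⁻¹ * f⁻¹) v = v := by
        intro v hv
        have hu : ρ h⁻¹ (ρ f⁻¹ v) ∈ V :=
          hBV _ (B.inv_mem hh) _ (hPV _ (P.inv_mem hf) _ hv)
        rw [hmul, hmul, hmul, hcomm _ hu, hinvr, hinvr]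
      have hcD := hker _ hcP hcV
      have hall := H24TNLoc.cen_of_one hc D hD hDc h (hBN hh) f hf hfD hcD
      exact hCV h ⟨hh, hall⟩
  have hy1 : ∃ v ∈ V, ρ y v ≠ v := by
    by_contra hcon
    push Not at hcon
    have hyinv : ∀ v ∈ V, ρ y⁻¹ v = v := by
      intro v hv
      conv_lhs => rw [← hcon v hv]
      exact hinvl y v
    have hyC : y ∈ C := by
      refine ⟨hyB, fun z hz => ?_⟩
      apply hker _ (P.mul_mem (hPn.conj_mem z hz y) (P.inv_mem hz))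
      intro v hv
      have hu : ρ z⁻¹ v ∈ V := hPV _ (P.inv_mem hz) _ hv
      rw [hmul, hmul, hmul, hyinv _ hu, hinvr, hcon v hv]
    obtain ⟨k, hk⟩ := hC2 ⟨y, hyC⟩
    have hk' : y ^ 2 ^ k = 1 := by
      have := congrArg Subtype.val hk
      simpa using this
    have hdvd : q ∣ 2 ^ k := by
      rw [← hc.yq]
      exact orderOf_dvd_of_pow_eq_one hk'
    have := (Nat.prime_dvd_prime_iff_eq hc.qp Nat.prime_two).1 (hc.qp.dvd_of_dvd_pow hdvd)
    exact hc.q2 this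
  have hmain := H24TNSecFree.secFree ρ V P B (X ⊓ ND D) y q hV0 hPV hBV hnil hodd
    (fun h _ f hf => hPn.conj_mem f hf h) hfpf (fun v _ hv => hc.CP v hv)
    (fun x hx => ⟨(le_sup_left : X ≤ K) hx.1, hx.2⟩) (hc.X2.to_le inf_le_left) hyB hc.qp hc.q2
    (by rw [← hc.yq]; exact pow_orderOf_eq_one y) hy1
  refine le_trans hmain ?_
  refine Nat.card_le_card_of_injective
    (fun v : {v : E // v ∈ V ∧ ∀ x ∈ X ⊓ ND D, ρ x v = v} =>
      (⟨v.1, (H24TNAvgC.avg_fix_iff ρ D hcardne _).2 v.2.1.1,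
        fun x hx hxD => v.2.2 x ⟨hx, hxD⟩⟩ :
        {v : E // avg ρ D v = v ∧ ∀ x ∈ X, cj x D = D → ρ x v = v})) ?_
  intro a b hab
  apply Subtype.ext
  exact congrArg (fun w : {v : E // avg ρ D v = v ∧ ∀ x ∈ X, cj x D = D → ρ x v = v} => w.1) hab

end Cfsg.Agent.Lib.H24TNSec8
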