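import Mathlib
import Cfsg.Agent.Lib.H24FMDefs
import Cfsg.Agent.Lib.H24TNDefs
import Cfsg.Agent.Lib.H24FMAvg
import Cfsg.Agent.Lib.H24TNAvgC
import Cfsg.Agent.Lib.H24TNAvgO
import Cfsg.Agent.Lib.H24TNAvgS

set_option autoImplicit false

/-! PROJECT 4414 = TN (row S4414), piece `SysD`.  Keep file name, namespace, theorem names and statements; extra helper lemmas are fine.

ASSEMBLY of the system of imprimitivity.  one, mul: `Subgroup.map_map`/`Subgroup.ext` + `mem_cj`.  idem: unfold eD, split_ifs, `H24FMAvg.avg_idem` + `AvgC.card_ne`.  orth: split_ifs, `AvgO.avg_orth`.  sum: `AvgS.avg_sum`.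
conj: unfold eD; `AvgC.pred_cj` says that the two conditions are equivalent; `AvgC.avg_cj`; in the else case ρ g * 0 * ρ g⁻¹ = 0. -/

namespace Cfsg.Agent.Lib.H24TNSysD

open Cfsg.Agent.Lib.H24FMDefs Cfsg.Agent.Lib.H24TNDefs

theorem sysD {S E : Type*} [Group S] [Finite S] [AddCommGroup E] [Module (ZMod 2) E]
    {ρ : Representation (ZMod 2) S E} {P X : Subgroup S} {y : S} {p q : ℕ} (hc : Ctx ρ P X y p q) :
    Sys ρ cj (eD ρ P p) where
  one := by
    intro D
    ext x
    rw [mem_cj]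
    simp
  mul := by
    intro g h D
    ext x
    rw [mem_cj, mem_cj, mem_cj]
    have : (g * h)⁻¹ * x * (g * h) = h⁻¹ * (g⁻¹ * x * g) * h := by group
    rw [this]
  idem := by
    intro D
    unfold eD
    split_ifs with h
    · exact Cfsg.Agent.Lib.H24FMAvg.avg_idem ρ
        (Cfsg.Agent.Lib.H24TNAvgC.card_ne P D p hc.pp hc.p2 hc.Pcard h.2)
    · rw [mul_zero]
  orth := by
    intro D D' hne
    unfold eD
    split_ifs with h h'
    · exact Cfsg.Agent.Lib.H24TNAvgO.avg_orth hc h.1 h.2 h'.1 h'.2 hne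
    · rw [mul_zero]
    · rw [zero_mul]
    · rw [zero_mul]
  sum := Cfsg.Agent.Lib.H24TNAvgS.avg_sum hc
  conj := by
    intro g D
    have hp := Cfsg.Agent.Lib.H24TNAvgC.pred_cj P hc.Pn p g D
    unfold eD
    by_cases h : D ≤ P ∧ Nat.card D * p = Nat.card P
    · rw [if_pos h, if_pos (hp.mpr h)]
      exact Cfsg.Agent.Lib.H24TNAvgC.avg_cj ρ g D
    · rw [if_neg h, if_neg (fun h' => h (hp.mp h')), mul_zero, zero_mul]

end Cfsg.Agent.Lib.H24TNSysD
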