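import Mathlib
import Cfsg.Agent.Lib.H24FMDefs
import Cfsg.Agent.Lib.H24TNDefs


set_option autoImplicit false

/-! PROJECT 4414 = TN (row S4414), piece `Transfer`.  Keep file name, namespace, theorem names and statements; extra helper lemmas are fine.

transfer (Mackey): an injection C_{range (e i)}(X_i) → C_E(X).  classical, Fintype.ofFinite I.  O = {j | ∃ x ∈ X, a x i = j}; choose x_j ∈ X with a x_j i = j for j ∈ O (`Classical.choose`; for j ∉ O anything, e.g. 1).
τ v = ∑_{j ∈ O} ρ (x_j) v.  Let v satisfy e i v = v and ρ s v = v for all s ∈ X with a s i = i.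
FIXED: for x ∈ X, j ∈ O: s = (x_{a x j})⁻¹ * x * x_j ∈ X fixes i, so ρ x (ρ x_j v) = ρ (x_{a x j}) (ρ s v) = ρ (x_{a x j}) v; j ↦ a x j is a permutation of O (`Finset.sum_bij`/`Finset.sum_nbij'` with inverse a x⁻¹).
INJECTIVE: e i (τ v) = v: for j ∈ O: ρ x_j v = ρ x_j (e i v) = e j (ρ x_j v) (hs.conj: ρ g * e i = e (a g i) * ρ g, multiply hs.conj by ρ g on the right, `rep_inv_mul`), so e i (ρ x_j v) = (e i * e j) (..) = 0 for j ≠ i (hs.orth), and for j = i: x_i fixes i, so ρ x_i v = v.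
Conclude with `Nat.card_le_card_of_injective` (E finite). -/

namespace Cfsg.Agent.Lib.H24TNTransfer

open Cfsg.Agent.Lib.H24FMDefs Cfsg.Agent.Lib.H24TNDefs

theorem transfer {S E I : Type*} [Group S] [Finite S] [AddCommGroup E] [Module (ZMod 2) E]
    [Finite E] [Finite I] {ρ : Representation (ZMod 2) S E} {a : S → I → I}
    {e : I → Module.End (ZMod 2) E} (hs : Sys ρ a e) (X : Subgroup S) (i : I) :
    Nat.card {v : E // e i v = v ∧ ∀ x ∈ X, a x i = i → ρ x v = v} ≤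
      Nat.card {v : E // ∀ x ∈ X, ρ x v = v} := by
  classical
  haveI := Fintype.ofFinite I
  obtain ⟨xs, hxs⟩ : ∃ xs : I → S, ∀ j, (∃ x ∈ X, a x i = j) → xs j ∈ X ∧ a (xs j) i = j := by
    refine ⟨fun j => if h : ∃ x ∈ X, a x i = j then Classical.choose h else 1, ?_⟩
    intro j hj
    simp only [dif_pos hj]
    exact Classical.choose_spec hj
  set O : Finset I := Finset.univ.filter (fun j => ∃ x ∈ X, a x i = j) with hO
  have memO : ∀ j, j ∈ O ↔ ∃ x ∈ X, a x i = j := by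
    intro j; simp [hO]
  have hiO : i ∈ O := (memO i).2 ⟨1, X.one_mem, hs.one i⟩
  have hmulO : ∀ x ∈ X, ∀ j ∈ O, a x j ∈ O := by
    intro x hx j hj
    obtain ⟨y, hy, rfl⟩ := (memO j).1 hj
    exact (memO _).2 ⟨x * y, X.mul_mem hx hy, hs.mul x y i⟩
  have hinv : ∀ (x : S) (j : I), a x⁻¹ (a x j) = j := by
    intro x j
    rw [← hs.mul, inv_mul_cancel, hs.one]
  have hinv' : ∀ (x : S) (j : I), a x (a x⁻¹ j) = j := by
    intro x j
    rw [← hs.mul, mul_inv_cancel, hs.one]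
  have hcomm : ∀ (g : S) (w : E), ρ g (e i w) = e (a g i) (ρ g w) := by
    intro g w
    have h1 := hs.conj g i
    have h2 : ρ g * e i = e (a g i) * ρ g := by
      rw [← h1, mul_assoc, ← map_mul, inv_mul_cancel, map_one, mul_one]
    exact congrArg (fun T : Module.End (ZMod 2) E => T w) h2
  have hfix : ∀ v : E, (e i v = v ∧ ∀ x ∈ X, a x i = i → ρ x v = v) →
      ∀ x ∈ X, ρ x (∑ j ∈ O, ρ (xs j) v) = ∑ j ∈ O, ρ (xs j) v := by
    intro v hv x hx
    rw [map_sum]
    have h1 : ∀ j ∈ O, ρ x (ρ (xs j) v) = ρ (xs (a x j)) v := by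
      intro j hj
      have hj' := hxs j ((memO j).1 hj)
      have hk := hxs (a x j) ((memO _).1 (hmulO x hx j hj))
      have hsX : (xs (a x j))⁻¹ * (x * xs j) ∈ X :=
        X.mul_mem (X.inv_mem hk.1) (X.mul_mem hx hj'.1)
      have hsi : a ((xs (a x j))⁻¹ * (x * xs j)) i = i := by
        rw [hs.mul, hs.mul, hj'.2]
        have h9 := hinv (xs (a x j)) i
        rwa [hk.2] at h9
      have h2 := hv.2 _ hsX hsi
      have h3 : x * xs j = xs (a x j) * ((xs (a x j))⁻¹ * (x * xs j)) := by group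
      calc ρ x (ρ (xs j) v) = ρ (x * xs j) v := by rw [map_mul]; rfl
        _ = ρ (xs (a x j) * ((xs (a x j))⁻¹ * (x * xs j))) v := by rw [← h3]
        _ = ρ (xs (a x j)) (ρ ((xs (a x j))⁻¹ * (x * xs j)) v) := by rw [map_mul]; rfl
        _ = ρ (xs (a x j)) v := by rw [h2]
    rw [Finset.sum_congr rfl h1]
    exact Finset.sum_nbij' (fun j => a x j) (fun j => a x⁻¹ j) (fun j hj => hmulO x hx j hj)
      (fun j hj => hmulO x⁻¹ (X.inv_mem hx) j hj) (fun j _ => hinv x j) (fun j _ => hinv' x j)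
      (fun j _ => rfl)
  have hproj : ∀ v : E, (e i v = v ∧ ∀ x ∈ X, a x i = i → ρ x v = v) →
      e i (∑ j ∈ O, ρ (xs j) v) = v := by
    intro v hv
    rw [map_sum, Finset.sum_eq_single i]
    · have hi := hxs i ((memO i).1 hiO)
      rw [hv.2 _ hi.1 hi.2, hv.1]
    · intro j hj hji
      have hj' := hxs j ((memO j).1 hj)
      have h1 : ρ (xs j) v = e j (ρ (xs j) v) := by
        conv_lhs => rw [← hv.1]
        rw [hcomm, hj'.2]
      rw [h1]
      have h2 := hs.orth i j (Ne.symm hji)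
      exact congrArg (fun T : Module.End (ZMod 2) E => T (ρ (xs j) v)) h2
    · intro h; exact absurd hiO h
  refine Nat.card_le_card_of_injective
    (fun v : {v : E // e i v = v ∧ ∀ x ∈ X, a x i = i → ρ x v = v} =>
      (⟨∑ j ∈ O, ρ (xs j) v.1, hfix v.1 v.2⟩ : {v : E // ∀ x ∈ X, ρ x v = v})) ?_
  intro v w hvw
  have h1 : ∑ j ∈ O, ρ (xs j) v.1 = ∑ j ∈ O, ρ (xs j) w.1 := congrArg Subtype.val hvw
  apply Subtype.ext
  rw [← hproj v.1 v.2, ← hproj w.1 w.2, h1]

end Cfsg.Agent.Lib.H24TNTransfer
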