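import Cfsg.Agent.Lib.Helper27Core
import Cfsg.Agent.Lib.Helper1Fitting
import Cfsg.Agent.Lib.Helper58Subnormal

set_option autoImplicit false

/-! Vocabulary of project 3819 (row S3819, Flavell: control of `O_{q'}` by centralizers under a coprime
operator group `P` with `[H, P]` solvable). -/

namespace Cfsg.Agent.Lib.H27CcDefs

open Subgroup

/-- `O_{q'}(A)` as a subgroup of the ambient group -/
def Oc {G : Type*} [Group G] (q : ℕ) (A : Subgroup G) : Subgroup G :=
  (Cfsg.pPrimeCore q ↥A).map A.subtype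

/-- the configuration: `G = H P`, `H` a normal `p'`-subgroup, `P` a `p`-group, `[H, P]` solvable, `z` a
`q`-element of `C_H(P)`, `X` a `P`-invariant normal `q'`-subgroup of `C_H(z)`, `Y` a normal `q'`-subgroup of
`C_H(P)`. -/
structure Cfg (p q : ℕ) {G : Type*} [Group G] (H P X Y : Subgroup G) (z : G) : Prop where
  hH : H.Normal
  hG : H ⊔ P = ⊤
  hHp : (Nat.card H).Coprime p
  hP : IsPGroup p P
  hsol : Group.IsSolvable ↥⁅H, P⁆
  hzH : z ∈ H
  hzP : z ∈ centralizer (P : Set G)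
  hz : ∃ k : ℕ, z ^ (q ^ k) = 1
  hX1 : X ≤ H ⊓ centralizer {z}
  hX2 : H ⊓ centralizer {z} ≤ normalizer (X : Set G)
  hX3 : P ≤ normalizer (X : Set G)
  hX4 : (Nat.card X).Coprime q
  hY1 : Y ≤ H ⊓ centralizer (P : Set G)
  hY2 : H ⊓ centralizer (P : Set G) ≤ normalizer (Y : Set G)
  hY4 : (Nat.card Y).Coprime q

/-- `F = O_q(G) ∩ [H, P]` -/
def FF {G : Type*} [Group G] (q : ℕ) (H P : Subgroup G) : Subgroup G := Cfsg.pCore q G ⊓ ⁅H, P⁆

end Cfsg.Agent.Lib.H27CcDefs
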