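import Cfsg.Agent.Lib.H27CcOc

set_option autoImplicit false

namespace Cfsg.Agent.Lib.H27CcFin

open Subgroup Cfsg.Agent.Lib.H27CcDefs

/-- THE CONFIGURATION OF THE ROW.  `H = pPrimeCore p G` is normal (`sSup` of normal subgroups, as in
`Helper1Fitting.pCore_normal`; or characteristic: `Helper14PConstr.pPrimeCore_characteristic`), of order prime to `p`
(`Helper27Core.card_pPrimeCore_coprime`); `P.2 : IsPGroup p P`; `hz`: `pow_orderOf_eq_one`.
`hX1 = Oc_le`, `hX2 = le_normalizer.trans (normalizer_le ..)`, `hX4 = card_Oc`, same for `Y`.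
`hX3`: `P ≤ normalizer (H ⊓ centralizer {z})` (for `y ∈ P`, `g ∈ H` commuting with `z`: `y*g*y⁻¹ ∈ H` and commutes with
`y*z*y⁻¹ = z`; get the normalizer with `Helper27Core.le_normalizer_of_cj_le`) then `H27CcOc.normalizer_le`. -/
theorem cfg {G : Type*} [Group G] [Finite G] {p : ℕ} [Fact p.Prime]
    (P : Sylow p G) (hPH : Cfsg.pPrimeCore p G ⊔ (P : Subgroup G) = ⊤)
    (hsol : Group.IsSolvable ↥⁅Cfsg.pPrimeCore p G, (P : Subgroup G)⁆)
    {q : ℕ} [Fact q.Prime] (z : G) (hzH : z ∈ Cfsg.pPrimeCore p G)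
    (hzP : z ∈ Subgroup.centralizer ((P : Subgroup G) : Set G))
    (hz : ∃ k : ℕ, orderOf z = q ^ k) :
    Cfg p q (Cfsg.pPrimeCore p G) (P : Subgroup G)
      (Oc q (Cfsg.pPrimeCore p G ⊓ Subgroup.centralizer ({z} : Set G)))
      (Oc q (Cfsg.pPrimeCore p G ⊓ Subgroup.centralizer ((P : Subgroup G) : Set G))) z := by
  have hHn : (Cfsg.pPrimeCore p G).Normal := Cfsg.Agent.Lib.Helper1Fitting.pPrimeCore_normal p
  refine
    { hH := hHn
      hG := hPH
      hHp := Cfsg.Agent.Lib.Helper27Core.card_pPrimeCore_coprime p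
      hP := P.2
      hsol := hsol
      hzH := hzH
      hzP := hzP
      hz := ?_
      hX1 := H27CcOc.Oc_le q _
      hX2 := le_normalizer.trans (H27CcOc.normalizer_le q _)
      hX3 := ?_
      hX4 := H27CcOc.card_Oc q _
      hY1 := H27CcOc.Oc_le q _
      hY2 := le_normalizer.trans (H27CcOc.normalizer_le q _)
      hY4 := H27CcOc.card_Oc q _ }
  · obtain ⟨k, hk⟩ := hz
    exact ⟨k, by rw [← hk]; exact pow_orderOf_eq_one z⟩
  · refine le_trans ?_ (H27CcOc.normalizer_le q _)
    have key : ∀ y ∈ (P : Subgroup G), ∀ g ∈ Cfsg.pPrimeCore p G ⊓ centralizer ({z} : Set G),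
        y * g * y⁻¹ ∈ Cfsg.pPrimeCore p G ⊓ centralizer ({z} : Set G) := by
      intro y hy g hg
      have hg1 : g ∈ Cfsg.pPrimeCore p G := (mem_inf.1 hg).1
      have hg2 : g ∈ centralizer ({z} : Set G) := (mem_inf.1 hg).2
      refine mem_inf.2 ⟨hHn.conj_mem g hg1 y, ?_⟩
      rw [mem_centralizer_singleton_iff] at hg2 ⊢
      have hyz : y * z = z * y := (mem_centralizer_iff.1 hzP) y hy
      have hyz' : y⁻¹ * z = z * y⁻¹ := by
        have := congrArg (fun t => y⁻¹ * t * y⁻¹) hyz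
        simpa [mul_assoc] using this.symm
      calc y * g * y⁻¹ * z = y * g * (y⁻¹ * z) := by group
        _ = y * (g * z) * y⁻¹ := by rw [hyz']; group
        _ = (y * z) * g * y⁻¹ := by rw [hg2]; group
        _ = z * (y * g * y⁻¹) := by rw [hyz]; group
    intro y hy
    rw [mem_normalizer_iff]
    intro g
    constructor
    · exact key y hy g
    · intro hg
      have := key y⁻¹ ((P : Subgroup G).inv_mem hy) _ hg
      simpa [mul_assoc] using this

/-- `T = pPrimeCore q G ⊓ H` is normal in `G` (so normalized by `H`), `≤ H`, of order dividing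
`card (pPrimeCore q G)`, prime to `q`; `H27CcOc.le_Oc`. -/
theorem core_inf_le {G : Type*} [Group G] [Finite G] (q : ℕ) (H : Subgroup G) (hH : H.Normal) :
    Cfsg.pPrimeCore q G ⊓ H ≤ Oc q H := by
  have hn : (Cfsg.pPrimeCore q G).Normal := Cfsg.Agent.Lib.Helper1Fitting.pPrimeCore_normal q
  have hT : (Cfsg.pPrimeCore q G ⊓ H).Normal := Subgroup.normal_inf_normal _ _
  apply H27CcOc.le_Oc inf_le_right
  · rw [normalizer_eq_top_iff.2 hT]
    exact le_top
  · exact Nat.Coprime.coprime_dvd_left (Subgroup.card_dvd_of_le inf_le_left)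
      (Cfsg.Agent.Lib.Helper27Core.card_pPrimeCore_coprime q)

end Cfsg.Agent.Lib.H27CcFin
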