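import Cfsg.Agent.Lib.Helper54Coprime

set_option autoImplicit false

namespace Cfsg.Agent.Lib.H27CcLift

open Subgroup

/-- COPRIME LIFTING.  `Helper54Coprime.exists_fixed_in_coset A N hA (¬ r ∣ card N) g hinv` gives `c` with
`g⁻¹ * c ∈ N` and `∀ b ∈ A, b*c*b⁻¹ = c` (so `c ∈ centralizer A`, `mem_centralizer_iff`).
`hinv : ∀ b ∈ A, ∀ y, g⁻¹*y ∈ N → g⁻¹*(b*y*b⁻¹) ∈ N`: in `G ⧸ N`: `mk y = mk g` (`QuotientGroup.eq`), and
`mk b` commutes with `mk g` by `hg` (`mem_centralizer_iff`, `mk b ∈ A.map (mk' N)`), so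
`mk (b*y*b⁻¹) = mk b * mk g * (mk b)⁻¹ = mk g`.  `¬ r ∣ card N` from `hN` (`Nat.Coprime`,
`(Nat.Prime.coprime_iff_not_dvd ..)`, `Nat.Coprime.symm`). -/
theorem lift {G : Type*} [Group G] [Finite G] {r : ℕ} [Fact r.Prime] (N A : Subgroup G) [N.Normal]
    (hA : IsPGroup r A) (hN : (Nat.card N).Coprime r) (g : G)
    (hg : (QuotientGroup.mk' N g) ∈
      centralizer ((A.map (QuotientGroup.mk' N) : Subgroup (G ⧸ N)) : Set (G ⧸ N))) :
    ∃ c, g⁻¹ * c ∈ N ∧ c ∈ centralizer (A : Set G) := by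
  have hr : r.Prime := Fact.out
  have hNr : ¬ r ∣ Nat.card N := (hr.coprime_iff_not_dvd).1 hN.symm
  have hinv : ∀ b ∈ A, ∀ y, g⁻¹ * y ∈ N → g⁻¹ * (b * y * b⁻¹) ∈ N := by
    intro b hb y hy
    have e1 : (QuotientGroup.mk' N) g = (QuotientGroup.mk' N) y := QuotientGroup.eq.2 hy
    have e2 : (QuotientGroup.mk' N) b * (QuotientGroup.mk' N) g
        = (QuotientGroup.mk' N) g * (QuotientGroup.mk' N) b :=
      (mem_centralizer_iff.1 hg) _ ⟨b, hb, rfl⟩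
    have e3 : (QuotientGroup.mk' N) g = (QuotientGroup.mk' N) (b * y * b⁻¹) := by
      rw [map_mul, map_mul, map_inv, ← e1, e2, mul_inv_cancel_right]
    exact QuotientGroup.eq.1 e3
  obtain ⟨c, hc1, hc2⟩ := Cfsg.Agent.Lib.Helper54Coprime.exists_fixed_in_coset A N hA hNr g hinv
  refine ⟨c, hc1, ?_⟩
  rw [mem_centralizer_iff]
  intro b hb
  have := hc2 b hb
  rw [mul_inv_eq_iff_eq_mul] at this
  exact this

end Cfsg.Agent.Lib.H27CcLift
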