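import Cfsg.Agent.Lib.H27CcDefs
import Cfsg.Agent.Lib.Helper14PConstr

set_option autoImplicit false

namespace Cfsg.Agent.Lib.H27CcOc

open Subgroup Cfsg.Agent.Lib.H27CcDefs

variable {G : Type*} [Group G]

/-- image under `A.subtype`. -/
theorem Oc_le (q : ℕ) (A : Subgroup G) : Oc q A ≤ A := by
  rintro _ ⟨x, -, rfl⟩
  exact x.2

theorem card_Oc [Finite G] (q : ℕ) (A : Subgroup G) : (Nat.card (Oc q A)).Coprime q := by
  unfold Oc
  rw [Subgroup.card_map_of_injective A.subtype_injective]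
  exact Cfsg.Agent.Lib.Helper27Core.card_pPrimeCore_coprime q

/-- `O_{q'}(A)` is characteristic in `A`, so it is normalized by `N_G(A)`. -/
theorem normalizer_le (q : ℕ) (A : Subgroup G) :
    normalizer (A : Set G) ≤ normalizer ((Oc q A : Subgroup G) : Set G) := by
  apply Cfsg.Agent.Lib.Helper27Core.le_normalizer_of_cj_le
  intro g hg
  rintro _ ⟨_, ⟨x, hx, rfl⟩, rfl⟩
  have hmem : ∀ a : ↥A, g * a * g⁻¹ ∈ A := fun a => (mem_normalizer_iff.mp hg a).mp a.2
  have hmem' : ∀ a : ↥A, g⁻¹ * a * g ∈ A := fun a => (mem_normalizer_iff''.mp hg a).mp a.2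
  let φ : ↥A ≃* ↥A :=
    { toFun := fun a => ⟨g * a * g⁻¹, hmem a⟩
      invFun := fun a => ⟨g⁻¹ * a * g, hmem' a⟩
      left_inv := fun a => Subtype.ext (by simp [mul_assoc])
      right_inv := fun a => Subtype.ext (by simp [mul_assoc])
      map_mul' := fun a b => Subtype.ext (by simp [mul_assoc]) }
  have hfix := (Cfsg.Agent.Lib.Helper14PConstr.pPrimeCore_characteristic q ↥A).fixed φ
  have h1 : φ x ∈ Cfsg.pPrimeCore q ↥A := by
    have h2 : x ∈ (Cfsg.pPrimeCore q ↥A).comap φ.toMonoidHom := by rw [hfix]; exact hx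
    exact h2
  exact ⟨φ x, h1, rfl⟩

theorem le_Oc {q : ℕ} {T A : Subgroup G} (hTA : T ≤ A) (hn : A ≤ normalizer (T : Set G))
    (hq : (Nat.card T).Coprime q) : T ≤ Oc q A := by
  have hN : (T.subgroupOf A).Normal := (Subgroup.normal_subgroupOf_iff_le_normalizer hTA).mpr hn
  have hc : (Nat.card (T.subgroupOf A)).Coprime q := by
    rw [Nat.card_congr (Subgroup.subgroupOfEquivOfLe hTA).toEquiv]; exact hq
  have h1 := Cfsg.Agent.Lib.Helper27Core.le_pPrimeCore hN hc
  intro t ht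
  exact ⟨⟨t, hTA ht⟩, h1 (by simpa [mem_subgroupOf] using ht), rfl⟩

end Cfsg.Agent.Lib.H27CcOc
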