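import Cfsg.Agent.Lib.H27CcDefs

set_option autoImplicit false

namespace Cfsg.Agent.Lib.H27CcQA1

open Subgroup Cfsg.Agent.Lib.H27CcDefs

variable {G : Type*} [Group G] [Finite G] {p q : ℕ} {H P X Y : Subgroup G} {z : G}

/-- `Subgroup.Normal.map` with `QuotientGroup.mk'_surjective`. -/
theorem hH (h : Cfg p q H P X Y z) (N : Subgroup G) [N.Normal] :
    (H.map (QuotientGroup.mk' N)).Normal :=
  h.hH.map _ (QuotientGroup.mk'_surjective N)

/-- `← Subgroup.map_sup`, `h.hG`, `Subgroup.map_top_of_surjective`. -/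
theorem hG (h : Cfg p q H P X Y z) (N : Subgroup G) [N.Normal] :
    H.map (QuotientGroup.mk' N) ⊔ P.map (QuotientGroup.mk' N) = ⊤ := by
  rw [← Subgroup.map_sup, h.hG, Subgroup.map_top_of_surjective _ (QuotientGroup.mk'_surjective N)]

/-- `card (T.map f) ∣ card T` (`Subgroup.card_map_dvd`), `Nat.Coprime.coprime_dvd_left`. -/
theorem card_map_coprime (T : Subgroup G) (N : Subgroup G) [N.Normal] (r : ℕ)
    (hT : (Nat.card T).Coprime r) : (Nat.card (T.map (QuotientGroup.mk' N))).Coprime r :=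
  Nat.Coprime.coprime_dvd_left (Subgroup.card_map_dvd T _) hT

/-- `IsPGroup.map`. -/
theorem hP (h : Cfg p q H P X Y z) (N : Subgroup G) [N.Normal] :
    IsPGroup p (P.map (QuotientGroup.mk' N)) :=
  h.hP.map _

/-- `← Subgroup.map_commutator`; the image of a solvable subgroup is solvable:
`solvable_of_surjective` for `((mk' N).subgroupMap ⁅H,P⁆)` (`MonoidHom.subgroupMap_surjective`). -/
theorem hsol (h : Cfg p q H P X Y z) (N : Subgroup G) [N.Normal] :
    Group.IsSolvable ↥⁅H.map (QuotientGroup.mk' N), P.map (QuotientGroup.mk' N)⁆ := by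
  rw [← Subgroup.map_commutator]
  have := h.hsol
  exact Group.isSolvable_of_surjective ((QuotientGroup.mk' N).subgroupMap_surjective ⁅H, P⁆)

end Cfsg.Agent.Lib.H27CcQA1
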