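import Cfsg.Agent.Lib.H27CcDefs

set_option autoImplicit false

namespace Cfsg.Agent.Lib.H27CcQA2

open Subgroup Cfsg.Agent.Lib.H27CcDefs

variable {G : Type*} [Group G] [Finite G] {p q : ℕ} {H P X Y : Subgroup G} {z : G}

/-- elements of `P.map π` are `π y`, `y ∈ P`; `π z * π y = π (z*y) = π (y*z)`. -/
theorem hzP (h : Cfg p q H P X Y z) (N : Subgroup G) [N.Normal] :
    QuotientGroup.mk' N z ∈
      centralizer ((P.map (QuotientGroup.mk' N) : Subgroup (G ⧸ N)) : Set (G ⧸ N)) := by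
  rw [mem_centralizer_iff]
  rintro _ ⟨y, hy, rfl⟩
  have := (mem_centralizer_iff.1 h.hzP) y hy
  rw [← map_mul, ← map_mul, this]

/-- `← map_pow`, `map_one`. -/
theorem hz (h : Cfg p q H P X Y z) (N : Subgroup G) [N.Normal] :
    ∃ k : ℕ, (QuotientGroup.mk' N z) ^ (q ^ k) = 1 := by
  obtain ⟨k, hk⟩ := h.hz
  exact ⟨k, by rw [← map_pow, hk, map_one]⟩

/-- image of `x ∈ X ≤ H ⊓ C(z)`. -/
theorem hX1 (h : Cfg p q H P X Y z) (N : Subgroup G) [N.Normal] :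
    X.map (QuotientGroup.mk' N) ≤
      H.map (QuotientGroup.mk' N) ⊓ centralizer {QuotientGroup.mk' N z} := by
  rintro _ ⟨x, hx, rfl⟩
  obtain ⟨h1, h2⟩ := Subgroup.mem_inf.1 (h.hX1 hx)
  refine Subgroup.mem_inf.2 ⟨⟨x, h1, rfl⟩, ?_⟩
  rw [mem_centralizer_singleton_iff] at h2 ⊢
  rw [← map_mul, ← map_mul, h2]

/-- `Subgroup.map_mono h.hX3` then `Subgroup.le_normalizer_map`. -/
theorem hX3 (h : Cfg p q H P X Y z) (N : Subgroup G) [N.Normal] :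
    P.map (QuotientGroup.mk' N) ≤
      normalizer ((X.map (QuotientGroup.mk' N) : Subgroup (G ⧸ N)) : Set (G ⧸ N)) :=
  (Subgroup.map_mono h.hX3).trans (Subgroup.le_normalizer_map _)

/-- image of `y ∈ Y ≤ H ⊓ C(P)`. -/
theorem hY1 (h : Cfg p q H P X Y z) (N : Subgroup G) [N.Normal] :
    Y.map (QuotientGroup.mk' N) ≤ H.map (QuotientGroup.mk' N) ⊓
      centralizer ((P.map (QuotientGroup.mk' N) : Subgroup (G ⧸ N)) : Set (G ⧸ N)) := by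
  rintro _ ⟨y, hy, rfl⟩
  obtain ⟨h1, h2⟩ := Subgroup.mem_inf.1 (h.hY1 hy)
  refine Subgroup.mem_inf.2 ⟨⟨y, h1, rfl⟩, ?_⟩
  rw [mem_centralizer_iff] at h2 ⊢
  rintro _ ⟨u, hu, rfl⟩
  rw [← map_mul, ← map_mul, h2 u hu]

end Cfsg.Agent.Lib.H27CcQA2
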