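import Cfsg.Agent.Lib.H27CcDefs

set_option autoImplicit false

namespace Cfsg.Agent.Lib.H27CcQRed

open Subgroup Cfsg.Agent.Lib.H27CcDefs

theorem pPrimeCore_normal' {G : Type*} [Group G] (q : ℕ) : (Cfsg.pPrimeCore q G).Normal :=
  sSup_normal _ fun _ h => h.1

theorem core_inf_normal {G : Type*} [Group G] (q : ℕ) (H : Subgroup G) (hH : H.Normal) :
    (Cfsg.pPrimeCore q G ⊓ H).Normal := by
  haveI := pPrimeCore_normal' (G := G) q
  exact Subgroup.normal_inf_normal _ _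

/-- `G/N` IS REDUCED for `N = O_{q'}(G) ∩ H`. -/
theorem red {G : Type*} [Group G] [Finite G] (q : ℕ) (H : Subgroup G) (hH : H.Normal)
    [hN : (Cfsg.pPrimeCore q G ⊓ H).Normal] :
    Cfsg.pPrimeCore q (G ⧸ (Cfsg.pPrimeCore q G ⊓ H)) ⊓
      H.map (QuotientGroup.mk' (Cfsg.pPrimeCore q G ⊓ H)) = ⊥ := by
  set N := Cfsg.pPrimeCore q G ⊓ H with hNdef
  set M := Cfsg.pPrimeCore q (G ⧸ N) with hM
  haveI hMn : M.Normal := pPrimeCore_normal' q
  have hcM : (Nat.card M).Coprime q := Cfsg.Agent.Lib.Helper27Core.card_pPrimeCore_coprime q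
  have hcN : (Nat.card N).Coprime q :=
    Nat.Coprime.coprime_dvd_left (Subgroup.card_dvd_of_le inf_le_left)
      (Cfsg.Agent.Lib.Helper27Core.card_pPrimeCore_coprime q)
  have hcC : (Nat.card (M.comap (QuotientGroup.mk' N))).Coprime q := by
    rw [Cfsg.Agent.Lib.Helper27Core.card_comap_of_surjective (QuotientGroup.mk'_surjective N) M,
      QuotientGroup.ker_mk']
    exact Nat.Coprime.mul_left hcN hcM
  have hTn : (M.comap (QuotientGroup.mk' N) ⊓ H).Normal := by
    haveI : (M.comap (QuotientGroup.mk' N)).Normal := hMn.comap _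
    exact Subgroup.normal_inf_normal _ _
  have hTc : (Nat.card (M.comap (QuotientGroup.mk' N) ⊓ H : Subgroup G)).Coprime q :=
    Nat.Coprime.coprime_dvd_left (Subgroup.card_dvd_of_le inf_le_left) hcC
  have hTle : M.comap (QuotientGroup.mk' N) ⊓ H ≤ N :=
    le_inf (Cfsg.Agent.Lib.Helper27Core.le_pPrimeCore hTn hTc) inf_le_right
  rw [eq_bot_iff]
  rintro x ⟨hxM, h, hh, rfl⟩
  rw [Subgroup.mem_bot]
  have : h ∈ N := hTle ⟨hxM, hh⟩
  exact (QuotientGroup.eq_one_iff h).2 this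

end Cfsg.Agent.Lib.H27CcQRed
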