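import Cfsg.Agent.Lib.H27CcDefs
import Cfsg.Agent.Lib.H27CcLift

set_option autoImplicit false

namespace Cfsg.Agent.Lib.H27CcQX

open Subgroup Cfsg.Agent.Lib.H27CcDefs

variable {G : Type*} [Group G] [Finite G] {p q : ℕ} {H P X Y : Subgroup G} {z : G}

/-- `C_{H/N}(z) = C_H(z) N / N` (coprime action of the `q`-group `⟨z⟩` on the `q'`-group `N`).
Let `w = π g`, `g ∈ H` (`mem_map`), commuting with `π z`.  `A = zpowers z` is a `q`-group (`h.hz`: each element
`z^i` satisfies `(z^i)^(q^k) = 1`; `IsPGroup` = `∀ g, ∃ k, g^(q^k) = 1`), `π g ∈ centralizer (A.map π)` (elements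
`π (z^i) = (π z)^i`, `Commute.zpow_right`..).  `H27CcLift.lift N A _ hNq g _` : `c` with `g⁻¹*c ∈ N`,
`c ∈ centralizer (zpowers z)`, so `c` commutes with `z`, `c ∈ H` (`c = g*(g⁻¹*c)`, `N ≤ H`), `π c = π g`
(`QuotientGroup.eq`).  So `c ∈ H ⊓ C(z) ≤ N(X)` and `π c ∈ (normalizer X).map π ≤ normalizer (X.map π)`
(`Subgroup.le_normalizer_map`). -/
theorem hX2 [Fact q.Prime] (h : Cfg p q H P X Y z) (N : Subgroup G) [N.Normal] (hNH : N ≤ H)
    (hNq : (Nat.card N).Coprime q) :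
    H.map (QuotientGroup.mk' N) ⊓ centralizer {QuotientGroup.mk' N z} ≤
      normalizer ((X.map (QuotientGroup.mk' N) : Subgroup (G ⧸ N)) : Set (G ⧸ N)) := by
  intro w hw
  obtain ⟨hw1, hw2⟩ := Subgroup.mem_inf.1 hw
  obtain ⟨g, hgH, rfl⟩ := hw1
  rw [mem_centralizer_singleton_iff] at hw2
  have hA : IsPGroup q (zpowers z) := by
    obtain ⟨k, hk⟩ := h.hz
    rintro ⟨x, hx⟩
    obtain ⟨i, rfl⟩ := mem_zpowers_iff.1 hx
    refine ⟨k, Subtype.ext ?_⟩
    change (z ^ i) ^ (q ^ k) = 1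
    rw [← zpow_natCast, ← zpow_mul, mul_comm, zpow_mul, zpow_natCast, hk, one_zpow]
  have hg : (QuotientGroup.mk' N g) ∈
      centralizer (((zpowers z).map (QuotientGroup.mk' N) : Subgroup (G ⧸ N)) : Set (G ⧸ N)) := by
    rw [mem_centralizer_iff]
    rintro _ ⟨x, hx, rfl⟩
    obtain ⟨i, rfl⟩ := mem_zpowers_iff.1 hx
    rw [map_zpow]
    exact ((show Commute (QuotientGroup.mk' N g) (QuotientGroup.mk' N z) from hw2).zpow_right i).eq.symm
  obtain ⟨c, hc1, hc2⟩ := H27CcLift.lift N (zpowers z) hA hNq g hg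
  have hcz : c ∈ centralizer ({z} : Set G) := by
    rw [mem_centralizer_singleton_iff]
    exact ((mem_centralizer_iff.1 hc2) z (mem_zpowers z)).symm
  have hcH : c ∈ H := by
    have : c = g * (g⁻¹ * c) := by group
    rw [this]
    exact mul_mem hgH (hNH hc1)
  have e : QuotientGroup.mk' N g = QuotientGroup.mk' N c := QuotientGroup.eq.2 hc1
  rw [e]
  exact Subgroup.le_normalizer_map _ ⟨c, h.hX2 (Subgroup.mem_inf.2 ⟨hcH, hcz⟩), rfl⟩

end Cfsg.Agent.Lib.H27CcQX
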