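import Cfsg.Agent.Lib.H27CcDefs
import Cfsg.Agent.Lib.H27CcLift

set_option autoImplicit false

namespace Cfsg.Agent.Lib.H27CcQY

open Subgroup Cfsg.Agent.Lib.H27CcDefs

variable {G : Type*} [Group G] [Finite G] {p q : ℕ} {H P X Y : Subgroup G} {z : G}

/-- `C_{H/N}(P) = C_H(P) N / N` (coprime action of the `p`-group `P` on `N ≤ H`, a `p'`-group:
`Nat.Coprime.coprime_dvd_left (Subgroup.card_dvd_of_le hNH) h.hHp`).
Let `w = π g`, `g ∈ H`, `w ∈ centralizer (P.map π)`.  `H27CcLift.lift N P h.hP _ g _` : `c` with `g⁻¹*c ∈ N`,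
`c ∈ centralizer P`, `c ∈ H`, `π c = π g` (`QuotientGroup.eq`).  So `c ∈ H ⊓ C(P) ≤ N(Y)`, and
`π c ∈ (normalizer Y).map π ≤ normalizer (Y.map π)` (`Subgroup.le_normalizer_map`). -/
theorem hY2 [Fact p.Prime] (h : Cfg p q H P X Y z) (N : Subgroup G) [N.Normal] (hNH : N ≤ H) :
    H.map (QuotientGroup.mk' N) ⊓
        centralizer ((P.map (QuotientGroup.mk' N) : Subgroup (G ⧸ N)) : Set (G ⧸ N)) ≤
      normalizer ((Y.map (QuotientGroup.mk' N) : Subgroup (G ⧸ N)) : Set (G ⧸ N)) := by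
  rintro w ⟨hwH, hwC⟩
  obtain ⟨g, hgH, rfl⟩ := hwH
  obtain ⟨c, hc1, hc2⟩ := H27CcLift.lift N P h.hP
    (Nat.Coprime.coprime_dvd_left (Subgroup.card_dvd_of_le hNH) h.hHp) g hwC
  have hcH : c ∈ H := by
    have e : c = g * (g⁻¹ * c) := by group
    rw [e]
    exact H.mul_mem hgH (hNH hc1)
  have e : QuotientGroup.mk' N g = QuotientGroup.mk' N c := QuotientGroup.eq.2 hc1
  rw [e]
  exact Subgroup.le_normalizer_map (QuotientGroup.mk' N) (mem_map_of_mem _ (h.hY2 ⟨hcH, hc2⟩))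

end Cfsg.Agent.Lib.H27CcQY
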