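import Cfsg.Agent.Lib.H27CcDefs

set_option autoImplicit false

namespace Cfsg.Agent.Lib.H27CcR1

open Subgroup Cfsg.Agent.Lib.H27CcDefs
open scoped commutatorElement

/-- PURE MATHLIB.  `[H, P]` is normal in `G = H P` (`H` normal). -/
theorem comm_normal {G : Type*} [Group G] (H P : Subgroup G) (hH : H.Normal) (hG : H ⊔ P = ⊤) :
    (⁅H, P⁆ : Subgroup G).Normal := by
  have key : ∀ g : G, (g ∈ H ∨ g ∈ P) → ∀ t ∈ (⁅H, P⁆ : Subgroup G), g * t * g⁻¹ ∈ (⁅H, P⁆ : Subgroup G) := by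
    intro g hg t ht
    have h1 : g * t * g⁻¹ ∈ (⁅H, P⁆ : Subgroup G).map (MulAut.conj g).toMonoidHom :=
      ⟨t, ht, by simp⟩
    rw [Subgroup.map_commutator] at h1
    refine (Subgroup.commutator_le.mpr ?_) h1
    rintro a ⟨h, hh, rfl⟩ b ⟨x, hx, rfl⟩
    have e0 : ⁅(MulAut.conj g).toMonoidHom h, (MulAut.conj g).toMonoidHom x⁆
        = ⁅g * h * g⁻¹, g * x * g⁻¹⁆ := by simp
    rw [e0]
    rcases hg with hg | hg
    · have e : ⁅g * h * g⁻¹, g * x * g⁻¹⁆ = ⁅g * h, x⁆ * ⁅g, x⁆⁻¹ := by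
        simp only [commutatorElement_def]; group
      rw [e]
      exact mul_mem (Subgroup.commutator_mem_commutator (H.mul_mem hg hh) hx)
        (inv_mem (Subgroup.commutator_mem_commutator hg hx))
    · exact Subgroup.commutator_mem_commutator (hH.conj_mem h hh g)
        (P.mul_mem (P.mul_mem hg hx) (P.inv_mem hg))
  rw [← Subgroup.normalizer_eq_top_iff, eq_top_iff, ← hG]
  apply sup_le
  · rw [Subgroup.le_normalizer_iff]
    exact fun g hg t ht => key g (Or.inl hg) t ht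
  · rw [Subgroup.le_normalizer_iff]
    exact fun g hg t ht => key g (Or.inr hg) t ht

theorem FF_normal {G : Type*} [Group G] (q : ℕ) (H P : Subgroup G) (hH : H.Normal)
    (hG : H ⊔ P = ⊤) : (FF q H P).Normal := by
  have h1 : (Cfsg.pCore q G).Normal := Cfsg.Agent.Lib.Helper1Fitting.pCore_normal q
  have h2 := comm_normal H P hH hG
  unfold FF
  exact Subgroup.normal_inf_normal _ _

theorem FF_isPGroup {G : Type*} [Group G] (q : ℕ) (H P : Subgroup G) : IsPGroup q (FF q H P) :=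
  (Cfsg.Agent.Lib.Helper27Core.pCore_isPGroup q).to_le inf_le_left

theorem FF_le {G : Type*} [Group G] (q : ℕ) (H P : Subgroup G) (hH : H.Normal) : FF q H P ≤ H :=
  inf_le_right.trans (Subgroup.commutator_le_left H P)

theorem inf_eq_bot {G : Type*} [Group G] [Finite G] {q : ℕ} {F X : Subgroup G} (hF : IsPGroup q F)
    (hX : (Nat.card X).Coprime q) : F ⊓ X = ⊥ := by
  rw [eq_bot_iff]
  rintro x ⟨hxF, hxX⟩
  rw [Subgroup.mem_bot]
  obtain ⟨k, hk⟩ := hF ⟨x, hxF⟩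
  have h1 : x ^ q ^ k = 1 := by simpa using congrArg Subtype.val hk
  have h2 : x ^ Nat.card X = 1 := by
    have h5 : (⟨x, hxX⟩ : X) ^ Nat.card X = 1 := pow_card_eq_one'
    exact congrArg Subtype.val h5
  have h3 : orderOf x ∣ Nat.gcd (Nat.card X) (q ^ k) :=
    Nat.dvd_gcd (orderOf_dvd_of_pow_eq_one h2) (orderOf_dvd_of_pow_eq_one h1)
  rw [Nat.Coprime.pow_right k hX] at h3
  exact orderOf_eq_one_iff.mp (Nat.dvd_one.mp h3)

end Cfsg.Agent.Lib.H27CcR1
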