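import Cfsg.Agent.Lib.H27CcDefs

set_option autoImplicit false

namespace Cfsg.Agent.Lib.H27CcR2a

open Subgroup Cfsg.Agent.Lib.H27CcDefs Cfsg.Agent.Lib.Helper58Subnormal

/-- A subnormal nilpotent subgroup `K` meeting `O_{q'}(G)` trivially is a `q`-group. -/
theorem isPGroup_of_nilpotent {G : Type*} [Group G] [Finite G] {q : ℕ} [Fact q.Prime]
    (K : Subgroup G) (hK : Group.IsNilpotent ↥K) (hsn : Sn K ⊤)
    (hred : Cfsg.pPrimeCore q G ⊓ K = ⊥) : IsPGroup q K := by
  have hq : q.Prime := Fact.out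
  have hpos : Nat.card K ≠ 0 := Nat.card_pos.ne'
  have key : ∀ r : ℕ, r.Prime → r ∣ Nat.card K → r = q := by
    intro r hr hdvd
    by_contra hne
    haveI : Fact r.Prime := ⟨hr⟩
    obtain ⟨R⟩ : Nonempty (Sylow r ↥K) := inferInstance
    have hRn : (R : Subgroup ↥K).Normal :=
      Sylow.normal_of_normalizerCondition (Group.normalizerCondition_of_isNilpotent) R
    set T : Subgroup G := (R : Subgroup ↥K).map K.subtype with hT
    have hTK : T ≤ K := Subgroup.map_subtype_le _
    have hNI : NormIn T K := by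
      refine ⟨hTK, ?_⟩
      intro k hk
      rw [Subgroup.mem_normalizer_iff]
      intro x
      constructor
      · rintro ⟨y, hy, rfl⟩
        exact ⟨⟨k, hk⟩ * y * ⟨k, hk⟩⁻¹, hRn.conj_mem y hy ⟨k, hk⟩, rfl⟩
      · rintro ⟨y, hy, hyx⟩
        refine ⟨⟨k, hk⟩⁻¹ * y * ⟨k, hk⟩, ?_, ?_⟩
        · have := hRn.conj_mem y hy (⟨k, hk⟩⁻¹ : ↥K)
          rw [inv_inv] at this
          exact this
        · have h1 : (y : G) = k * x * k⁻¹ := hyx
          show k⁻¹ * (y : G) * k = x
          rw [h1]; group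
    have hTsn : T.IsSubnormal := sn_top_iff.1 (hNI.sn.trans hsn)
    have hTcard : Nat.card T = Nat.card (R : Subgroup ↥K) :=
      Subgroup.card_map_of_injective K.subtype_injective
    have hTc : (Nat.card T).Coprime q := by
      obtain ⟨n, hn⟩ := (IsPGroup.iff_card.1 R.2)
      rw [hTcard, hn]
      exact Nat.Coprime.pow_left n ((Nat.coprime_primes hr hq).2 hne)
    have hTle := Cfsg.Agent.Lib.Helper27Core.subnormal_le_pPrimeCore hTsn hTc
    have hTbot : T = ⊥ := by
      rw [eq_bot_iff, ← hred]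
      exact le_inf hTle hTK
    have hR1 : Nat.card (R : Subgroup ↥K) = 1 := by
      rw [← hTcard, hTbot]; simp
    have hRne : (R : Subgroup ↥K) ≠ ⊥ := Sylow.ne_bot_of_dvd_card R hdvd
    exact hRne ((Subgroup.card_eq_one).1 hR1)
  have := Nat.eq_prime_pow_of_unique_prime_dvd hpos (fun {d} hd hdv => key d hd hdv)
  exact IsPGroup.of_card this

end Cfsg.Agent.Lib.H27CcR2a
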