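import Cfsg.Agent.Lib.H27CcR1
import Cfsg.Agent.S0028

set_option autoImplicit false

namespace Cfsg.Agent.Lib.H27CcR3

open Subgroup Cfsg.Agent.Lib.H27CcDefs

variable {G : Type*} [Group G] [Finite G] {p q : ℕ} {H P X Y : Subgroup G} {z : G}

/-- THOMPSON `A × B`: `Cfsg.Agent.S0028.result q (zpowers z) X (FF q H P) ..` :
`(P := zpowers z)` is a `q`-group (`h.hz`), `(Q := X)` has order prime to `q` (`h.hX4`), `(U := FF)` is a `q`-group
(`H27CcR1.FF_isPGroup`); `zpowers z ≤ centralizer X` (`X ≤ C(z)` by `h.hX1`; `zpowers_le`, `mem_centralizer_iff`);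
both normalize `FF` (normal: `H27CcR1.FF_normal`, `normalizer_eq_top_iff`, `le_top`);
`hC : FF ⊓ centralizer (zpowers z) ≤ centralizer X`: `u ∈ FF` commuting with `z` lies in `H ⊓ C(z)`
(`H27CcR1.FF_le`), so normalizes `X` (`h.hX2`); for `x ∈ X`: `u*x*u⁻¹*x⁻¹ ∈ X` and
`= u*(x*u⁻¹*x⁻¹) ∈ FF` (normal), so it is `1` by `H27CcR1.inf_eq_bot`. -/
theorem X_le [Fact q.Prime] (h : Cfg p q H P X Y z) :
    X ≤ centralizer ((FF q H P : Subgroup G) : Set G) := by
  have hFn : (FF q H P).Normal := H27CcR1.FF_normal q H P h.hH h.hG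
  have hN : normalizer ((FF q H P : Subgroup G) : Set G) = ⊤ := normalizer_eq_top_iff.2 hFn
  have hP : IsPGroup q (zpowers z) := by
    obtain ⟨k, hk⟩ := h.hz
    rintro ⟨g, hg⟩
    obtain ⟨n, rfl⟩ := mem_zpowers_iff.1 hg
    refine ⟨k, Subtype.ext ?_⟩
    show (z ^ n) ^ (q ^ k) = 1
    rw [← zpow_natCast, ← zpow_mul, mul_comm, zpow_mul, zpow_natCast, hk, one_zpow]
  have hPQ : zpowers z ≤ centralizer (X : Set G) := by
    rw [zpowers_le, mem_centralizer_iff]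
    intro x hx
    exact mem_centralizer_singleton_iff.1 (h.hX1 hx).2
  refine Cfsg.Agent.S0028.result q (zpowers z) X (FF q H P) hP h.hX4 (H27CcR1.FF_isPGroup q H P) hPQ
    (by rw [hN]; exact le_top) (by rw [hN]; exact le_top) ?_
  rintro u ⟨huF, huz⟩
  rw [mem_centralizer_iff]
  intro x hx
  have huz' : z * u = u * z := (mem_centralizer_iff.1 huz) z (mem_zpowers z)
  have huN : u ∈ normalizer (X : Set G) :=
    h.hX2 ⟨H27CcR1.FF_le q H P h.hH huF, mem_centralizer_singleton_iff.2 huz'.symm⟩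
  have h1 : u * x * u⁻¹ * x⁻¹ ∈ X := X.mul_mem ((mem_normalizer_iff.1 huN x).1 hx) (X.inv_mem hx)
  have h2 : u * x * u⁻¹ * x⁻¹ ∈ FF q H P := by
    have e : u * x * u⁻¹ * x⁻¹ = u * (x * u⁻¹ * x⁻¹) := by group
    rw [e]
    exact (FF q H P).mul_mem huF (hFn.conj_mem _ ((FF q H P).inv_mem huF) x)
  have h3 : u * x * u⁻¹ * x⁻¹ ∈ FF q H P ⊓ X := ⟨h2, h1⟩
  rw [H27CcR1.inf_eq_bot (H27CcR1.FF_isPGroup q H P) h.hX4, mem_bot] at h3
  have h4 : u * x = x * u := by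
    have := congrArg (fun t => t * x * u) h3
    simpa [mul_assoc] using this
  exact h4.symm

end Cfsg.Agent.Lib.H27CcR3
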