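import Cfsg.Agent.Lib.H27InvDefs

set_option autoImplicit false

namespace Cfsg.Agent.Lib.H27InvMem

open Cfsg.Agent.Lib.H27InvDefs

/-- `a * a = 1` has order 1. -/
theorem self_mem {Γ : Type*} [Group Γ] {a : Γ} (ha : a * a = 1) : a ∈ Nb a := by
  refine ⟨IsConj.refl a, ?_⟩
  rw [ha, orderOf_one]
  exact odd_one

/-- conjugates of `a` are involutions too. -/
theorem sq_of_mem {Γ : Type*} [Group Γ] {a b : Γ} (ha : a * a = 1) (hb : b ∈ Nb a) :
    b * b = 1 := by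
  obtain ⟨c, hc⟩ := isConj_iff.mp hb.1
  rw [← hc]
  calc c * a * c⁻¹ * (c * a * c⁻¹) = c * (a * a) * c⁻¹ := by group
    _ = 1 := by rw [ha]; group

/-- `a` inverts `a * b`. -/
theorem inverts {Γ : Type*} [Group Γ] {a b : Γ} (ha : a * a = 1) (hb : b ∈ Nb a) :
    a * (a * b) * a⁻¹ = (a * b)⁻¹ := by
  have hb2 := sq_of_mem ha hb
  have hbi : b⁻¹ = b := by rw [inv_eq_iff_mul_eq_one]; exact hb2
  rw [mul_inv_rev, hbi, ← mul_assoc, ha, one_mul]

/-- If `a` inverts `s` of odd order then `a * s ∈ Nb a`. -/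
theorem mem_Nb {Γ : Type*} [Group Γ] {a s : Γ} (ha : a * a = 1) (hs : a * s * a⁻¹ = s⁻¹)
    (ho : Odd (orderOf s)) : a * s ∈ Nb a := by
  obtain ⟨k, hk⟩ := ho
  set u := s ^ (k + 1) with hu
  have huu : u * u = s := by
    rw [hu, ← pow_add]
    have : k + 1 + (k + 1) = orderOf s + 1 := by omega
    rw [this, pow_succ, pow_orderOf_eq_one, one_mul]
  have hau : a * u * a⁻¹ = u⁻¹ := by
    rw [hu, ← conj_pow, hs, inv_pow]
  have hai : a⁻¹ = a := by rw [inv_eq_iff_mul_eq_one]; exact ha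
  refine ⟨?_, ?_⟩
  · rw [isConj_iff]
    refine ⟨u⁻¹, ?_⟩
    rw [inv_inv]
    -- u⁻¹ * a * u = a * s
    have h1 : u⁻¹ * a = a * u := by
      rw [← hau, hai]
      calc a * u * a * a = a * u * (a * a) := by group
        _ = a * u := by rw [ha, mul_one]
    rw [h1, mul_assoc, huu]
  · rw [← mul_assoc, ha, one_mul, hk]
    exact ⟨k, rfl⟩

end Cfsg.Agent.Lib.H27InvMem
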