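import Cfsg.Agent.Lib.H27InvPow
import Cfsg.Agent.Lib.H27InvMem

set_option autoImplicit false

namespace Cfsg.Agent.Lib.H27InvA

open Cfsg.Agent.Lib.H27InvDefs Cfsg.Agent.Lib.Helper27EngA

theorem iter_eq {Γ : Type*} [Group Γ] {a : Γ} (ha : a * a = 1) (j : ℕ) :
    ∀ d : Γ, a * d * a⁻¹ = d⁻¹ → (F a)^[j] d = d ^ (2 ^ j) := by
  induction j with
  | zero => intro d _; simp
  | succ j ih =>
    intro d hd
    rw [Function.iterate_succ_apply]
    have h1 : F a d = d * d := by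
      unfold F
      have : a * d⁻¹ * a⁻¹ = d := by
        have h2 : a * d⁻¹ * a⁻¹ = (a * d * a⁻¹)⁻¹ := by group
        rw [h2, hd, inv_inv]
      calc d * a * d⁻¹ * a⁻¹ = d * (a * d⁻¹ * a⁻¹) := by group
        _ = d * d := by rw [this]
    have h3 : a * (d * d) * a⁻¹ = (d * d)⁻¹ := by
      calc a * (d * d) * a⁻¹ = (a * d * a⁻¹) * (a * d * a⁻¹) := by group
        _ = (d * d)⁻¹ := by rw [hd]; group
    rw [h1, ih _ h3, ← pow_two, ← pow_mul, pow_succ, mul_comm]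

/-- The odd neighbours of `a` generate `Γ`. -/
theorem closure_Nb {Γ : Type*} [Group Γ] [Finite Γ] {a : Γ} (ha : a * a = 1) (hg : Gen a) :
    Subgroup.closure (Nb a) = ⊤ := by
  have hainv : a⁻¹ = a := inv_eq_of_mul_eq_one_left ha
  have h := Helper27EngA.gen a hg (Nat.card Γ + 1)
  rw [eq_top_iff, ← h, Subgroup.closure_le]
  have haN : a ∈ Subgroup.closure (Nb a) := Subgroup.subset_closure (H27InvMem.self_mem ha)
  rintro y (hy | ⟨x, rfl⟩)
  · rw [Set.mem_singleton_iff] at hy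
    rw [hy]; exact haN
  · rw [Function.iterate_succ_apply]
    have hd : a * (F a x) * a⁻¹ = (F a x)⁻¹ := by
      unfold F
      rw [hainv]
      have : (x * a * x⁻¹ * a)⁻¹ = a⁻¹ * x * a⁻¹ * x⁻¹ := by group
      rw [this, hainv]
      calc a * (x * a * x⁻¹ * a) * a = a * x * a * x⁻¹ * (a * a) := by group
        _ = a * x * a * x⁻¹ := by rw [ha, mul_one]
    rw [iter_eq ha _ _ hd]
    have ho : Odd (orderOf ((F a x) ^ (2 ^ Nat.card Γ))) := H27InvPow.odd_pow _ _ le_rfl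
    have hinv : a * ((F a x) ^ (2 ^ Nat.card Γ)) * a⁻¹ = ((F a x) ^ (2 ^ Nat.card Γ))⁻¹ := by
      rw [← conj_pow, hd, inv_pow]
    have hm := H27InvMem.mem_Nb ha hinv ho
    have e : (F a x) ^ (2 ^ Nat.card Γ) = a * (a * (F a x) ^ (2 ^ Nat.card Γ)) := by
      rw [← mul_assoc, ha, one_mul]
    show (F a x) ^ (2 ^ Nat.card Γ) ∈ Subgroup.closure (Nb a)
    rw [e]
    exact Subgroup.mul_mem _ haN (Subgroup.subset_closure hm)

end Cfsg.Agent.Lib.H27InvA
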