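import Cfsg.Agent.Lib.H27InvBS

set_option autoImplicit false

namespace Cfsg.Agent.Lib.H27InvB

open Cfsg.Agent.Lib.H27InvDefs

/-- the map `Nb a → Nb (mk a)` -/
def red {Γ : Type*} [Group Γ] (a : Γ) (N : Subgroup Γ) [N.Normal] :
    Nb a → Nb (QuotientGroup.mk a : Γ ⧸ N) :=
  fun b => ⟨QuotientGroup.mk b.1, H27InvBS.maps N b.2⟩

theorem red_surj {Γ : Type*} [Group Γ] [Finite Γ] {a : Γ} (N : Subgroup Γ) [N.Normal]
    (ha : a * a = 1) : Function.Surjective (red a N) := by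
  rintro ⟨c, hc⟩
  obtain ⟨b, hb, hbc⟩ := H27InvBS.surj N ha c hc
  exact ⟨⟨b, hb⟩, Subtype.ext hbc⟩

theorem card_le {Γ : Type*} [Group Γ] [Finite Γ] {a : Γ} (N : Subgroup Γ) [N.Normal]
    (ha : a * a = 1) :
    Nat.card (Nb (QuotientGroup.mk a : Γ ⧸ N)) ≤ Nat.card (Nb a) :=
  Nat.card_le_card_of_surjective _ (red_surj N ha)

theorem card_lt {Γ : Type*} [Group Γ] [Finite Γ] {a b b' : Γ} (N : Subgroup Γ) [N.Normal]
    (ha : a * a = 1) (hb : b ∈ Nb a) (hb' : b' ∈ Nb a) (hne : b' ≠ b) (hN : b⁻¹ * b' ∈ N) :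
    Nat.card (Nb (QuotientGroup.mk a : Γ ⧸ N)) < Nat.card (Nb a) := by
  by_contra hcon
  rw [not_lt] at hcon
  have hbij := (red_surj N ha).bijective_of_nat_card_le hcon
  have h1 : red a N ⟨b, hb⟩ = red a N ⟨b', hb'⟩ := by
    apply Subtype.ext
    exact QuotientGroup.eq.2 hN
  have h2 := hbij.1 h1
  exact hne (congrArg Subtype.val h2).symm

end Cfsg.Agent.Lib.H27InvB
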