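import Cfsg.Agent.Lib.H27InvPow
import Cfsg.Agent.Lib.H27InvMem

set_option autoImplicit false

namespace Cfsg.Agent.Lib.H27InvBS

open Cfsg.Agent.Lib.H27InvDefs

theorem gen_mk {Γ : Type*} [Group Γ] {a : Γ} (N : Subgroup Γ) [N.Normal] (hg : Gen a) :
    Gen (QuotientGroup.mk a : Γ ⧸ N) := by
  intro M hM ha
  have h1 := hg (M.comap (QuotientGroup.mk' N)) (hM.comap _) ha
  rw [eq_top_iff]
  intro y _
  obtain ⟨g, rfl⟩ := QuotientGroup.mk_surjective y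
  have h2 : g ∈ M.comap (QuotientGroup.mk' N) := by rw [h1]; trivial
  exact h2

theorem maps {Γ : Type*} [Group Γ] {a b : Γ} (N : Subgroup Γ) [N.Normal] (hb : b ∈ Nb a) :
    (QuotientGroup.mk b : Γ ⧸ N) ∈ Nb (QuotientGroup.mk a : Γ ⧸ N) := by
  refine ⟨(QuotientGroup.mk' N).map_isConj hb.1, ?_⟩
  exact Odd.of_dvd_nat hb.2 (orderOf_map_dvd (QuotientGroup.mk' N) (a * b))

theorem surj {Γ : Type*} [Group Γ] [Finite Γ] {a : Γ} (N : Subgroup Γ) [N.Normal]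
    (ha : a * a = 1) (c : Γ ⧸ N) (hc : c ∈ Nb (QuotientGroup.mk a : Γ ⧸ N)) :
    ∃ b ∈ Nb a, (QuotientGroup.mk b : Γ ⧸ N) = c := by
  obtain ⟨hconj, hodd⟩ := hc
  obtain ⟨y, hy⟩ := isConj_iff.1 hconj
  obtain ⟨g, rfl⟩ := QuotientGroup.mk_surjective y
  have hainv : a⁻¹ = a := inv_eq_of_mul_eq_one_left ha
  have hmkt : (QuotientGroup.mk (a * (g * a * g⁻¹)) : Γ ⧸ N) = QuotientGroup.mk a * c := by
    rw [← hy]; rfl
  have hinv : a * (a * (g * a * g⁻¹)) * a⁻¹ = (a * (g * a * g⁻¹))⁻¹ := by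
    have e1 : a * (a * (g * a * g⁻¹)) * a⁻¹ = (a * a) * (g * a * g⁻¹) * a⁻¹ := by group
    have e2 : (a * (g * a * g⁻¹))⁻¹ = g * a⁻¹ * g⁻¹ * a⁻¹ := by group
    rw [e1, e2, ha, one_mul, hainv]
  set t := a * (g * a * g⁻¹) with ht
  set m := orderOf ((QuotientGroup.mk a : Γ ⧸ N) * c) with hm
  have hmpos : 0 < m := orderOf_pos _
  have hcop : Nat.Coprime 2 m := (Nat.coprime_two_left).2 hodd
  have hmod : 2 ^ (Nat.totient m * Nat.card Γ) ≡ 1 [MOD m] := by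
    rw [pow_mul]
    have := (Nat.ModEq.pow_totient hcop).pow (Nat.card Γ)
    rwa [one_pow] at this
  have hpow : ((QuotientGroup.mk a : Γ ⧸ N) * c) ^ (2 ^ (Nat.totient m * Nat.card Γ)) =
      (QuotientGroup.mk a : Γ ⧸ N) * c := by
    have := (pow_eq_pow_iff_modEq (x := (QuotientGroup.mk a : Γ ⧸ N) * c)
      (n := 2 ^ (Nat.totient m * Nat.card Γ)) (m := 1)).2 hmod
    rwa [pow_one] at this
  have hoddt : Odd (orderOf (t ^ (2 ^ (Nat.totient m * Nat.card Γ)))) := by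
    apply H27InvPow.odd_pow
    exact Nat.le_mul_of_pos_left _ (Nat.totient_pos.2 hmpos)
  have hinvt : a * t ^ (2 ^ (Nat.totient m * Nat.card Γ)) * a⁻¹ =
      (t ^ (2 ^ (Nat.totient m * Nat.card Γ)))⁻¹ := by
    rw [← conj_pow, hinv, inv_pow]
  refine ⟨a * t ^ (2 ^ (Nat.totient m * Nat.card Γ)), H27InvMem.mem_Nb ha hinvt hoddt, ?_⟩
  have e1 : (QuotientGroup.mk (a * t ^ (2 ^ (Nat.totient m * Nat.card Γ))) : Γ ⧸ N) =
      QuotientGroup.mk a * (QuotientGroup.mk t) ^ (2 ^ (Nat.totient m * Nat.card Γ)) := rfl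
  rw [e1, hmkt, hpow, ← mul_assoc]
  have e2 : (QuotientGroup.mk a : Γ ⧸ N) * QuotientGroup.mk a = 1 := by
    rw [← QuotientGroup.mk_mul, ha]; rfl
  rw [e2, one_mul]

end Cfsg.Agent.Lib.H27InvBS
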