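import Cfsg.Agent.Lib.H27InvMem

set_option autoImplicit false

namespace Cfsg.Agent.Lib.H27InvC

open Cfsg.Agent.Lib.H27InvDefs

/-- PARITY ARGUMENT (see the sketch in notes/helper27/Inv). -/
theorem exists_other {Γ : Type*} [Group Γ] [Finite Γ] {a b e : Γ} (ha : a * a = 1)
    (E : Subgroup Γ) (hE : E.Normal) (hE2 : IsPGroup 2 E) (hb : b ∈ Nb a) (he : e ∈ E)
    (hne : e * (a * b) ≠ (a * b) * e) :
    ∃ b' ∈ Nb a, b' ≠ b ∧ b⁻¹ * b' ∈ E := by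
  classical
  obtain ⟨t, ht⟩ : ∃ t, t = a * b := ⟨_, rfl⟩
  rw [← ht] at hne
  have hinv : a * t * a⁻¹ = t⁻¹ := by rw [ht]; exact H27InvMem.inverts ha hb
  have hodd : Odd (orderOf t) := by rw [ht]; exact hb.2
  have hainv : a⁻¹ = a := inv_eq_of_mul_eq_one_left ha
  letI : MulAction E Γ := MulAction.compHom Γ ((MulAut.conj).comp E.subtype)
  have hsmul : ∀ (x : E) (s : Γ), x • s = (x : Γ) * s * (x : Γ)⁻¹ := fun x s => rfl
  obtain ⟨n, hn⟩ := hE2.card_orbit t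
  have hmem : ∀ s : Γ, s ∈ MulAction.orbit E t ↔ ∃ x ∈ E, s = x * t * x⁻¹ := by
    intro s
    constructor
    · rintro ⟨x, rfl⟩
      exact ⟨x, x.2, hsmul x t⟩
    · rintro ⟨x, hx, rfl⟩
      exact ⟨⟨x, hx⟩, hsmul ⟨x, hx⟩ t⟩
  have htO : t ∈ MulAction.orbit E t := MulAction.mem_orbit_self t
  have heO : e * t * e⁻¹ ∈ MulAction.orbit E t := (hmem _).mpr ⟨e, he, rfl⟩
  have hne' : e * t * e⁻¹ ≠ t := by
    intro h
    apply hne
    calc e * t = e * t * e⁻¹ * e := by group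
      _ = t * e := by rw [h]
  have hn0 : n ≠ 0 := by
    rintro rfl
    rw [pow_zero, Nat.card_eq_one_iff_unique] at hn
    obtain ⟨hs, -⟩ := hn
    exact hne' (congrArg Subtype.val (hs.elim ⟨_, heO⟩ ⟨_, htO⟩))
  have hfO : ∀ s : MulAction.orbit E t, a * (s : Γ)⁻¹ * a⁻¹ ∈ MulAction.orbit E t := by
    rintro ⟨s, hs⟩
    obtain ⟨x, hx, rfl⟩ := (hmem s).mp hs
    refine (hmem _).mpr ⟨a * x * a⁻¹, hE.conj_mem x hx a, ?_⟩
    have h1 : a * t⁻¹ * a⁻¹ = t := by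
      have : a * t⁻¹ * a⁻¹ = (a * t * a⁻¹)⁻¹ := by group
      rw [this, hinv, inv_inv]
    calc a * (x * t * x⁻¹)⁻¹ * a⁻¹ = (a * x * a⁻¹) * (a * t⁻¹ * a⁻¹) * (a * x * a⁻¹)⁻¹ := by group
      _ = (a * x * a⁻¹) * t * (a * x * a⁻¹)⁻¹ := by rw [h1]
  let f : Function.End (MulAction.orbit E t) := fun s => ⟨a * (s : Γ)⁻¹ * a⁻¹, hfO s⟩
  have hf : f ^ 2 ^ 1 = 1 := by
    funext s
    apply Subtype.ext
    show a * (a * (s : Γ)⁻¹ * a⁻¹)⁻¹ * a⁻¹ = (s : Γ)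
    rw [hainv]
    calc a * (a * (s : Γ)⁻¹ * a)⁻¹ * a = a * a⁻¹ * (s : Γ) * (a⁻¹ * a) := by group
      _ = (s : Γ) := by simp
  haveI : Fintype (MulAction.orbit E t) := Fintype.ofFinite _
  have hmod := Equiv.Perm.card_fixedPoints_modEq (p := 2) (n := 1) hf
  rw [← Nat.card_eq_fintype_card, hn] at hmod
  have heven : 2 ∣ Fintype.card (Function.fixedPoints f) := by
    have h2 : 2 ∣ 2 ^ n := dvd_pow_self 2 hn0
    exact (Nat.modEq_zero_iff_dvd.mp (hmod.symm.trans (Nat.modEq_zero_iff_dvd.mpr h2)))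
  have htfix : (⟨t, htO⟩ : MulAction.orbit E t) ∈ Function.fixedPoints f := by
    show f ⟨t, htO⟩ = ⟨t, htO⟩
    apply Subtype.ext
    show a * t⁻¹ * a⁻¹ = t
    have : a * t⁻¹ * a⁻¹ = (a * t * a⁻¹)⁻¹ := by group
    rw [this, hinv, inv_inv]
  have hcard : 1 < Fintype.card (Function.fixedPoints f) := by
    have hpos : 0 < Fintype.card (Function.fixedPoints f) := Fintype.card_pos_iff.mpr ⟨⟨_, htfix⟩⟩
    obtain ⟨k, hk⟩ := heven
    omega
  obtain ⟨⟨s, hsfix⟩, hs⟩ := Fintype.exists_ne_of_one_lt_card hcard ⟨_, htfix⟩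
  have hst : (s : Γ) ≠ t := by
    intro h
    apply hs
    apply Subtype.ext
    apply Subtype.ext
    exact h
  have hs1 : a * (s : Γ)⁻¹ * a⁻¹ = (s : Γ) := congrArg Subtype.val hsfix
  obtain ⟨x, hx, hsx⟩ := (hmem _).mp s.2
  have hs2 : a * (s : Γ) * a⁻¹ = (s : Γ)⁻¹ := by
    have : a * (s : Γ) * a⁻¹ = (a * (s : Γ)⁻¹ * a⁻¹)⁻¹ := by group
    rw [this, hs1]
  have hso : Odd (orderOf (s : Γ)) := by
    have : orderOf (s : Γ) = orderOf t := by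
      rw [hsx]
      have := orderOf_injective (MulAut.conj x).toMonoidHom (MulAut.conj x).injective t
      simpa using this
    rw [this]; exact hodd
  refine ⟨a * (s : Γ), H27InvMem.mem_Nb ha hs2 hso, ?_, ?_⟩
  · intro h
    apply hst
    calc (s : Γ) = a * a * (s : Γ) := by rw [ha, one_mul]
      _ = a * (a * (s : Γ)) := by rw [mul_assoc]
      _ = a * b := by rw [h]
      _ = t := ht.symm
  · have hb' : b = a * t := by rw [ht, ← mul_assoc, ha, one_mul]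
    have h1 : b⁻¹ * (a * (s : Γ)) = (t⁻¹ * x * t⁻¹⁻¹) * x⁻¹ := by
      rw [hb', hsx]; group
    rw [h1]
    exact E.mul_mem (hE.conj_mem x hx t⁻¹) (E.inv_mem hx)

end Cfsg.Agent.Lib.H27InvC
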