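import Cfsg.Agent.Lib.H27InvD1

set_option autoImplicit false

namespace Cfsg.Agent.Lib.H27InvD

open Cfsg.Agent.Lib.H27InvDefs Cfsg.Agent.Lib.Helper58Subnormal

/-- If no odd neighbour `b ≠ a` of `a` has `a * b ∈ E` (`E` normal), then `[E, a] ≤ O_2(Γ)`. -/
theorem comm_mem_pCore {Γ : Type*} [Group Γ] [Finite Γ] {a : Γ} (ha : a * a = 1)
    (E : Subgroup Γ) (hE : E.Normal) (h : ∀ b ∈ Nb a, a * b ∈ E → b = a) :
    ∀ x ∈ E, x * a * x⁻¹ * a⁻¹ ∈ Cfsg.pCore 2 Γ := by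
  have := hE
  obtain ⟨Λ, hΛ⟩ : ∃ Λ : Subgroup Γ, Λ = E ⊔ Subgroup.zpowers a := ⟨_, rfl⟩
  have hEΛ : E ≤ Λ := by rw [hΛ]; exact le_sup_left
  have haΛ : a ∈ Λ := by rw [hΛ]; exact le_sup_right (a := E) (Subgroup.mem_zpowers a)
  have hM : ∀ s ∈ Λ, a * (s * a * s⁻¹) ∈ E := by
    have hle : Λ ≤ (Subgroup.centralizer {(QuotientGroup.mk a : Γ ⧸ E)}).comap
        (QuotientGroup.mk' E) := by
      rw [hΛ, sup_le_iff]
      constructor
      · intro x hx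
        rw [Subgroup.mem_comap, Subgroup.mem_centralizer_singleton_iff]
        have : (QuotientGroup.mk' E x) = 1 := (QuotientGroup.eq_one_iff x).mpr hx
        rw [this, mul_one, one_mul]
      · rw [Subgroup.zpowers_le, Subgroup.mem_comap, Subgroup.mem_centralizer_singleton_iff]
        rfl
    intro s hs
    have h1 := hle hs
    rw [Subgroup.mem_comap, Subgroup.mem_centralizer_singleton_iff] at h1
    rw [← QuotientGroup.eq_one_iff]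
    have h2 : ((a * (s * a * s⁻¹) : Γ) : Γ ⧸ E) =
        (QuotientGroup.mk a : Γ ⧸ E) * ((QuotientGroup.mk' E s) * (QuotientGroup.mk a : Γ ⧸ E)
          * (QuotientGroup.mk' E s)⁻¹) := rfl
    rw [h2, h1, mul_assoc (QuotientGroup.mk a : Γ ⧸ E), mul_inv_cancel, mul_one, ← QuotientGroup.mk_mul, ha]
    rfl
  obtain ⟨a', ha'⟩ : ∃ a' : Λ, a' = ⟨a, haΛ⟩ := ⟨_, rfl⟩
  have hca : (a' : Γ) = a := by rw [ha']
  have haa : a' * a' = 1 := by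
    apply Subtype.ext
    rw [Subgroup.coe_mul, hca, ha]; rfl
  have hNb : ∀ b ∈ Nb a', b = a' := by
    intro b hb
    obtain ⟨hc, ho⟩ := hb
    obtain ⟨c, hc⟩ := isConj_iff.mp hc
    have hbc : (b : Γ) = (c : Γ) * a * (c : Γ)⁻¹ := by rw [← hc, ← hca]; rfl
    have hb' : (b : Γ) ∈ Nb a := by
      refine ⟨?_, ?_⟩
      · rw [isConj_iff]
        exact ⟨(c : Γ), hbc.symm⟩
      · have : ((a' * b : Λ) : Γ) = a * b := by rw [Subgroup.coe_mul, hca]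
        rw [← this, Subgroup.orderOf_coe]
        exact ho
    have h3 : a * (b : Γ) ∈ E := by rw [hbc]; exact hM _ c.2
    apply Subtype.ext
    rw [h _ hb' h3, hca]
  have haP := H27InvD1.mem_pCore haa hNb
  have hPn : (Cfsg.pCore 2 Λ).Normal := Cfsg.Agent.Lib.Helper1Fitting.pCore_normal 2
  obtain ⟨T, hT⟩ : ∃ T : Subgroup Γ, T = ((Cfsg.pCore 2 Λ).map Λ.subtype) ⊓ E := ⟨_, rfl⟩
  have hT2 : IsPGroup 2 T := by
    have h1 : IsPGroup 2 ((Cfsg.pCore 2 Λ).map Λ.subtype) :=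
      (Cfsg.Agent.Lib.Helper27Core.pCore_isPGroup 2).map _
    rw [hT]
    exact h1.to_le inf_le_left
  have hTE : NormIn T E := by
    refine ⟨by rw [hT]; exact inf_le_right, ?_⟩
    apply Cfsg.Agent.Lib.Helper27Core.le_normalizer_of_cj_le
    intro k hk
    rintro _ ⟨y, hy, rfl⟩
    show k * y * k⁻¹ ∈ T
    have hy' : y ∈ T := hy
    rw [hT] at hy' ⊢
    obtain ⟨⟨w, hw, hwy⟩, hyE⟩ := hy'
    refine ⟨⟨⟨k, hEΛ hk⟩ * w * ⟨k, hEΛ hk⟩⁻¹, hPn.conj_mem w hw _, ?_⟩, hE.conj_mem y hyE k⟩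
    rw [← hwy]; rfl
  have hE1 : NormIn E ⊤ := by
    refine ⟨le_top, ?_⟩
    rw [Subgroup.normalizer_eq_top_iff.mpr hE]
  have hsub : T.IsSubnormal := sn_top_iff.mp (hTE.sn.trans hE1.sn)
  have hTle := Cfsg.Agent.Lib.Helper27Core.subnormal_le_pCore hsub hT2
  intro x hx
  apply hTle
  rw [hT]
  refine ⟨⟨⟨x, hEΛ hx⟩ * a' * ⟨x, hEΛ hx⟩⁻¹ * a'⁻¹, ?_, ?_⟩, ?_⟩
  · exact (Cfsg.pCore 2 Λ).mul_mem (hPn.conj_mem a' haP _) ((Cfsg.pCore 2 Λ).inv_mem haP)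
  · rw [← hca]; rfl
  · have : x * a * x⁻¹ * a⁻¹ = x * (a * x⁻¹ * a⁻¹) := by group
    rw [this]
    exact E.mul_mem hx (hE.conj_mem _ (E.inv_mem hx) a)

end Cfsg.Agent.Lib.H27InvD
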