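import Cfsg.Agent.Lib.H27InvA

set_option autoImplicit false

namespace Cfsg.Agent.Lib.H27InvD1

open Cfsg.Agent.Lib.H27InvDefs Cfsg.Agent.Lib.Helper58Subnormal Cfsg.Agent.Lib.Helper27FlavA

/-- Baer-Suzuki type lemma: if `a` is its only odd neighbour then `a ∈ O_2(Γ)`. -/
theorem mem_pCore {Γ : Type*} [Group Γ] [Finite Γ] {a : Γ} (ha : a * a = 1)
    (h : ∀ b ∈ Nb a, b = a) : a ∈ Cfsg.pCore 2 Γ := by
  obtain ⟨S, hPf, hSn⟩ := exists_pf_sn (A := Subgroup.zpowers a) (K := ⊤) le_top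
  have haS : a ∈ S := hPf.1 (Subgroup.mem_zpowers a)
  obtain ⟨a', ha'⟩ : ∃ a' : S, a' = ⟨a, haS⟩ := ⟨_, rfl⟩
  have hca : (a' : Γ) = a := by rw [ha']
  have haa : a' * a' = 1 := by
    apply Subtype.ext
    rw [Subgroup.coe_mul, hca, ha]; rfl
  have hgen : Gen a' := by
    intro N hN haN
    have h1 : NormIn (N.map S.subtype) S := by
      refine ⟨?_, ?_⟩
      · rintro _ ⟨x, _, rfl⟩
        exact x.2
      · intro s hs
        rw [Subgroup.mem_normalizer_iff]
        intro y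
        constructor
        · rintro ⟨x, hx, rfl⟩
          exact ⟨⟨s, hs⟩ * x * ⟨s, hs⟩⁻¹, hN.conj_mem x hx _, rfl⟩
        · rintro ⟨x, hx, hxy⟩
          refine ⟨⟨s, hs⟩⁻¹ * x * ⟨s, hs⟩, ?_, ?_⟩
          · have := hN.conj_mem x hx (⟨s, hs⟩⁻¹)
            rwa [inv_inv] at this
          · show s⁻¹ * (x : Γ) * s = y
            have : (x : Γ) = s * y * s⁻¹ := hxy
            rw [this]; group
    have h2 : Subgroup.zpowers a ≤ N.map S.subtype := by
      rw [Subgroup.zpowers_le]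
      exact ⟨a', haN, hca⟩
    have h3 := hPf.2 _ h1 h2
    rw [eq_top_iff]
    intro x _
    have hx : (x : Γ) ∈ N.map S.subtype := by rw [h3]; exact x.2
    obtain ⟨y, hy, hyx⟩ := hx
    have : y = x := Subtype.ext hyx
    rwa [← this]
  have hcl := H27InvA.closure_Nb haa hgen
  have hNb : Nb a' ⊆ {a'} := by
    intro b hb
    have hb' : (b : Γ) ∈ Nb a := by
      obtain ⟨hc, ho⟩ := hb
      refine ⟨?_, ?_⟩
      · obtain ⟨c, hc⟩ := isConj_iff.mp hc
        rw [isConj_iff]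
        refine ⟨(c : Γ), ?_⟩
        rw [← hc, ← hca]; rfl
      · have : ((a' * b : S) : Γ) = a * b := by rw [Subgroup.coe_mul, hca]
        rw [← this, Subgroup.orderOf_coe]
        exact ho
    have := h _ hb'
    rw [Set.mem_singleton_iff]
    apply Subtype.ext
    rw [this, hca]
  have hS : S = Subgroup.zpowers a := by
    apply le_antisymm _ hPf.1
    intro s hs
    have h1 : (⟨s, hs⟩ : S) ∈ Subgroup.closure ({a'} : Set S) := by
      have : Subgroup.closure (Nb a') ≤ Subgroup.closure ({a'} : Set S) :=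
        Subgroup.closure_mono hNb
      rw [hcl] at this
      exact this (Subgroup.mem_top _)
    rw [← Subgroup.zpowers_eq_closure] at h1
    obtain ⟨i, hi⟩ := Subgroup.mem_zpowers_iff.mp h1
    rw [Subgroup.mem_zpowers_iff]
    refine ⟨i, ?_⟩
    have := congrArg (fun x : S => (x : Γ)) hi
    simp only [Subgroup.coe_zpow, hca] at this
    exact this
  rw [hS] at hSn
  have hsub : (Subgroup.zpowers a).IsSubnormal := sn_top_iff.mp hSn
  have hp : IsPGroup 2 (Subgroup.zpowers a) := by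
    intro x
    refine ⟨1, ?_⟩
    obtain ⟨i, hi⟩ := Subgroup.mem_zpowers_iff.mp x.2
    apply Subtype.ext
    rw [Subgroup.coe_pow, ← hi, pow_one, ← zpow_natCast, ← zpow_mul, mul_comm, zpow_mul]
    have : a ^ ((2 : ℕ) : ℤ) = 1 := by rw [zpow_natCast, pow_two, ha]
    rw [this, one_zpow]; rfl
  exact Cfsg.Agent.Lib.Helper27Core.subnormal_le_pCore hsub hp (Subgroup.mem_zpowers a)

end Cfsg.Agent.Lib.H27InvD1
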