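import Cfsg.Agent.Lib.H27InvDefs
import Cfsg.Agent.Lib.H73TgCM

set_option autoImplicit false

namespace Cfsg.Agent.Lib.H27InvD2

open Cfsg.Agent.Lib.H27InvDefs

/-- `P = pCore 2 Γ` (normal: `Helper1Fitting.pCore_normal`, 2-group: `Helper27Core.pCore_isPGroup`),
`E = normalClosure {z}` (normal).  `M = {g | ∀ x ∈ E, x*g*x⁻¹*g⁻¹ ∈ P}` is a normal subgroup of `Γ`
(= preimage of the centralizer of the normal subgroup `E.map (mk' P)` of `Γ ⧸ P`; the centralizer of a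
normal subgroup is normal: `Subgroup.normal_centralizer`-type instance / `Subgroup.Normal.centralizer`..,
or check by hand) and contains `a`, so `M = ⊤` by `hg`.
Hence `z*g*z⁻¹*g⁻¹ ∈ P` for all `g`, so `W = P ⊔ zpowers z` is normal
(`g*z*g⁻¹ = (z*g*z⁻¹*g⁻¹)⁻¹ * z`), contains `z`, so `E ≤ W` (`Subgroup.normalClosure_le_normal`).
`W` is a 2-group: `card W` divides `card P * card (zpowers z)` (`Helper27Core.card_sup_dvd`) or: for `w ∈ W`,
`mk w ∈ Γ ⧸ P` is a power of `mk z`, so `w^2 ∈ P`, so `w^(2*2^k) = 1`.  `IsPGroup.to_le`. -/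
theorem isPGroup_normalClosure {Γ : Type*} [Group Γ] [Finite Γ] {a z : Γ} (hg : Gen a)
    (hz : orderOf z = 2)
    (h : ∀ x ∈ Subgroup.normalClosure {z}, x * a * x⁻¹ * a⁻¹ ∈ Cfsg.pCore 2 Γ) :
    IsPGroup 2 (Subgroup.normalClosure {z}) := by
  have hPn : (Cfsg.pCore 2 Γ).Normal := Cfsg.Agent.Lib.Helper1Fitting.pCore_normal 2
  have hP2 : IsPGroup 2 (Cfsg.pCore 2 Γ) := Cfsg.Agent.Lib.Helper27Core.pCore_isPGroup 2
  have hEn : (Subgroup.normalClosure {z}).Normal := Subgroup.normalClosure_normal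
  obtain ⟨Y, hYn, hY⟩ := Cfsg.Agent.Lib.H73TgCM.exists_cenMod (Subgroup.normalClosure {z})
    (Cfsg.pCore 2 Γ) hEn hPn
  have haY : a ∈ Y := by
    rw [hY]
    intro f hf
    have h1 := inv_mem (h f hf)
    have e : (f * a * f⁻¹ * a⁻¹)⁻¹ = a * f * a⁻¹ * f⁻¹ := by group
    rwa [e] at h1
  have hYtop : Y = ⊤ := hg Y hYn haY
  have hzE : z ∈ Subgroup.normalClosure {z} := Subgroup.subset_normalClosure rfl
  have hall : ∀ g : Γ, g * z * g⁻¹ * z⁻¹ ∈ Cfsg.pCore 2 Γ := by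
    intro g
    have : g ∈ Y := by rw [hYtop]; trivial
    exact (hY g).1 this z hzE
  have hEW : Subgroup.normalClosure {z} ≤ Cfsg.pCore 2 Γ ⊔ Subgroup.zpowers z := by
    unfold Subgroup.normalClosure
    rw [Subgroup.closure_le]
    intro w hw
    rw [Group.mem_conjugatesOfSet_iff] at hw
    obtain ⟨x, hx, hxw⟩ := hw
    have hx' : x = z := hx
    subst hx'
    obtain ⟨g, hg'⟩ := isConj_iff.1 hxw
    have e : w = (g * x * g⁻¹ * x⁻¹) * x := by rw [← hg']; group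
    show w ∈ Cfsg.pCore 2 Γ ⊔ Subgroup.zpowers x
    rw [e]
    exact mul_mem (Subgroup.mem_sup_left (hall g)) (Subgroup.mem_sup_right (Subgroup.mem_zpowers x))
  have hW : IsPGroup 2 (Cfsg.pCore 2 Γ ⊔ Subgroup.zpowers z : Subgroup Γ) := by
    have hd := Cfsg.Agent.Lib.Helper27Core.card_sup_dvd (A := Cfsg.pCore 2 Γ) (B := Subgroup.zpowers z)
      (by rw [Subgroup.normalizer_eq_top_iff.2 hPn]; exact le_top)
    have : Fact (Nat.Prime 2) := ⟨Nat.prime_two⟩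
    obtain ⟨k, hk⟩ := IsPGroup.iff_card.1 hP2
    rw [hk, Nat.card_zpowers, hz, ← pow_succ] at hd
    obtain ⟨j, _, hj⟩ := (Nat.dvd_prime_pow Nat.prime_two).1 hd
    exact IsPGroup.of_card hj
  exact hW.to_le hEW

end Cfsg.Agent.Lib.H27InvD2
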