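import Cfsg.Agent.Lib.Helper27EngA
import Cfsg.Agent.Lib.Helper27Core
import Cfsg.Agent.Lib.Helper1Fitting

set_option autoImplicit false

/-! Vocabulary of project 3928 (row S3928): a finite group `Γ` which is the normal closure of an
involution `a` has order bounded in terms of the number of conjugates `b` of `a` with `a * b` of
odd order. -/

namespace Cfsg.Agent.Lib.H27InvDefs

/-- `Γ` is the normal closure of `a`. -/
def Gen {Γ : Type*} [Group Γ] (a : Γ) : Prop := ∀ N : Subgroup Γ, N.Normal → a ∈ N → N = ⊤

/-- the conjugates `b` of `a` such that `a * b` has odd order -/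
def Nb {Γ : Type*} [Group Γ] (a : Γ) : Set Γ := {b | IsConj a b ∧ Odd (orderOf (a * b))}

/-- `K` bounds the order of all `(Γ, a)` with at most `n` "odd neighbours" of `a`. -/
def Bd (n K : ℕ) : Prop := ∀ (Γ : Type) [Group Γ] [Finite Γ] (a : Γ), a * a = 1 → Gen a →
  Nat.card (Nb a) ≤ n → Nat.card Γ ≤ K

/-- no central involution -/
def NoZ (Γ : Type*) [Group Γ] : Prop := ∀ w ∈ Subgroup.center Γ, w * w = 1 → w = 1

/-- the elements of `O_2(Γ)` commuting with all elements of odd order -/
def Rad (Γ : Type*) [Group Γ] : Subgroup Γ :=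
  Cfsg.pCore 2 Γ ⊓ Subgroup.centralizer {x : Γ | Odd (orderOf x)}

/-- the subgroup generated by the elements of odd order -/
def Od (Γ : Type*) [Group Γ] : Subgroup Γ := Subgroup.closure {x : Γ | Odd (orderOf x)}

/-- `S` is a Schur bound for index `k`. -/
def Sch (k S : ℕ) : Prop := ∀ (G : Type) [Group G] [Finite G], (Subgroup.center G).index ≤ k →
  Nat.card (commutator G) ≤ S

end Cfsg.Agent.Lib.H27InvDefs
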