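import Mathlib

set_option autoImplicit false

namespace Cfsg.Agent.Lib.H27InvE2

theorem fiber {Γ : Type*} [Group Γ] {a c z : Γ} (hc : IsConj a c) :
    Nat.card {w : Γ // IsConj z w ∧ w * c = c * w} = Nat.card {w : Γ // IsConj z w ∧ w * a = a * w} := by
  obtain ⟨g, rfl⟩ := isConj_iff.mp hc
  symm
  apply Nat.card_congr
  apply Equiv.subtypeEquiv (MulAut.conj g).toEquiv
  intro w
  have hw : IsConj w (g * w * g⁻¹) := isConj_iff.mpr ⟨g, rfl⟩
  show (IsConj z w ∧ w * a = a * w) ↔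
    (IsConj z (g * w * g⁻¹) ∧ (g * w * g⁻¹) * (g * a * g⁻¹) = (g * a * g⁻¹) * (g * w * g⁻¹))
  constructor
  · rintro ⟨h1, h2⟩
    refine ⟨h1.trans hw, ?_⟩
    calc (g * w * g⁻¹) * (g * a * g⁻¹) = g * (w * a) * g⁻¹ := by group
      _ = g * (a * w) * g⁻¹ := by rw [h2]
      _ = (g * a * g⁻¹) * (g * w * g⁻¹) := by group
  · rintro ⟨h1, h2⟩
    refine ⟨h1.trans hw.symm, ?_⟩
    calc w * a = g⁻¹ * ((g * w * g⁻¹) * (g * a * g⁻¹)) * g := by group
      _ = g⁻¹ * ((g * a * g⁻¹) * (g * w * g⁻¹)) * g := by rw [h2]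
      _ = a * w := by group

theorem card_pairs {Γ : Type*} [Finite Γ] (A : Γ → Prop) (R : Γ → Γ → Prop) (n : ℕ)
    (h : ∀ c, A c → Nat.card {w // R c w} = n) :
    Nat.card {p : Γ × Γ // A p.1 ∧ R p.1 p.2} = Nat.card {c // A c} * n := by
  classical
  have := Fintype.ofFinite {c // A c}
  let e : {p : Γ × Γ // A p.1 ∧ R p.1 p.2} ≃ Σ c : {c // A c}, {w // R c.1 w} :=
    { toFun := fun p => ⟨⟨p.1.1, p.2.1⟩, ⟨p.1.2, p.2.2⟩⟩
      invFun := fun s => ⟨(s.1.1, s.2.1), s.1.2, s.2.2⟩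
      left_inv := fun _ => rfl
      right_inv := fun _ => rfl }
  rw [Nat.card_congr e, Nat.card_sigma]
  rw [Finset.sum_congr rfl (fun c _ => h c.1 c.2)]
  rw [Finset.sum_const, Finset.card_univ, smul_eq_mul, Nat.card_eq_fintype_card]

theorem count {Γ : Type*} [Group Γ] [Finite Γ] (a z : Γ) :
    Nat.card {c : Γ // IsConj a c} * Nat.card {w : Γ // IsConj z w ∧ w * a = a * w} =
      Nat.card {w : Γ // IsConj z w} * Nat.card {c : Γ // IsConj a c ∧ c * z = z * c} := by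
  rw [← card_pairs (fun c => IsConj a c) (fun c w => IsConj z w ∧ w * c = c * w) _
      (fun c hc => fiber hc),
    ← card_pairs (fun w => IsConj z w) (fun w c => IsConj a c ∧ c * w = w * c) _
      (fun w hw => fiber hw)]
  apply Nat.card_congr
  apply Equiv.subtypeEquiv (Equiv.prodComm Γ Γ)
  rintro ⟨c, w⟩
  simp only [Equiv.prodComm_apply, Prod.swap_prod_mk]
  constructor
  · rintro ⟨h1, h2, h3⟩
    exact ⟨h2, h1, h3.symm⟩
  · rintro ⟨h1, h2, h3⟩
    exact ⟨h2, h1, h3.symm⟩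

end Cfsg.Agent.Lib.H27InvE2
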