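import Cfsg.Agent.Lib.H27InvE1
import Cfsg.Agent.Lib.H27InvE2

set_option autoImplicit false

namespace Cfsg.Agent.Lib.H27InvE

open Cfsg.Agent.Lib.H27InvDefs

/-- the filter of `univ` with the classical decidability instance -/
noncomputable def Fl {Γ : Type*} [Fintype Γ] (p : Γ → Prop) : Finset Γ :=
  @Finset.filter Γ p (Classical.decPred p) Finset.univ

theorem mem_Fl {Γ : Type*} [Fintype Γ] {p : Γ → Prop} {x : Γ} : x ∈ Fl p ↔ p x := by
  unfold Fl
  simp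

theorem card_Fl {Γ : Type*} [Fintype Γ] (p : Γ → Prop) : Nat.card {x // p x} = (Fl p).card := by
  classical
  unfold Fl
  rw [Nat.card_eq_fintype_card, Fintype.card_subtype]

/-- BRAUER-FOWLER COUNT (see the sketch in notes/helper27/Inv). -/
theorem bf {Γ : Type*} [Group Γ] [Finite Γ] {a : Γ} (ha : a * a = 1) (n i₀ : ℕ)
    (hn : Nat.card (Nb a) ≤ n)
    (hi : Nat.card {z : Γ // orderOf z = 2 ∧ z * a = a * z} ≤ i₀) :
    Nat.card {c : Γ // IsConj a c} < 2 * n ∨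
      ∃ z : Γ, orderOf z = 2 ∧ z * a = a * z ∧ Nat.card {w : Γ // IsConj z w} ≤ 2 * i₀ ^ 2 := by
  classical
  have : Fintype Γ := Fintype.ofFinite Γ
  by_cases hlt : Nat.card {c : Γ // IsConj a c} < 2 * n
  · exact Or.inl hlt
  right
  push Not at hlt
  have hn' : (Fl (fun x => x ∈ Nb a)).card ≤ n := by
    rw [← card_Fl]; exact hn
  rw [card_Fl] at hi hlt
  obtain ⟨Cs, hCs⟩ : ∃ Cs : Finset Γ, Cs = Fl (fun c => IsConj a c) := ⟨_, rfl⟩
  obtain ⟨Zs, hZs⟩ : ∃ Zs : Finset Γ, Zs = Fl (fun z => orderOf z = 2 ∧ z * a = a * z) :=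
    ⟨_, rfl⟩
  rw [← hCs] at hlt
  rw [← hZs] at hi
  let Cz : Γ → Finset Γ := fun z => Fl (fun c => IsConj a c ∧ c * z = z * c)
  have hsub : Cs ⊆ Fl (fun x => x ∈ Nb a) ∪ Zs.biUnion Cz := by
    intro c hc
    rw [hCs, mem_Fl] at hc
    rcases H27InvE1.cover ha hc with h | ⟨z, hz1, hz2, hz3⟩
    · exact Finset.mem_union_left _ (mem_Fl.mpr h)
    · apply Finset.mem_union_right
      rw [Finset.mem_biUnion]
      refine ⟨z, ?_, mem_Fl.mpr ⟨hc, hz3.symm⟩⟩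
      rw [hZs]
      exact mem_Fl.mpr ⟨hz1, hz2⟩
  have h1 : Cs.card ≤ n + ∑ z ∈ Zs, (Cz z).card :=
    calc Cs.card ≤ _ := Finset.card_le_card hsub
      _ ≤ _ + (Zs.biUnion Cz).card := Finset.card_union_le _ _
      _ ≤ n + ∑ z ∈ Zs, (Cz z).card := Nat.add_le_add hn' Finset.card_biUnion_le
  have h2 : Cs.card ≤ 2 * ∑ z ∈ Zs, (Cz z).card := by omega
  have haC : a ∈ Cs := by rw [hCs]; exact mem_Fl.mpr (IsConj.refl a)
  have hCpos : 0 < Cs.card := Finset.card_pos.mpr ⟨a, haC⟩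
  have h3 : ∃ z ∈ Zs, Cs.card ≤ 2 * i₀ * (Cz z).card := by
    by_contra hcon
    push Not at hcon
    have hne : Zs.Nonempty := by
      rw [Finset.nonempty_iff_ne_empty]
      intro he
      rw [he, Finset.sum_empty] at h2
      omega
    have h4 : ∑ z ∈ Zs, 2 * i₀ * (Cz z).card < ∑ _z ∈ Zs, Cs.card :=
      Finset.sum_lt_sum_of_nonempty hne hcon
    rw [← Finset.mul_sum, Finset.sum_const, smul_eq_mul] at h4
    have h5 : Zs.card * Cs.card ≤ i₀ * (2 * ∑ z ∈ Zs, (Cz z).card) := Nat.mul_le_mul hi h2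
    have h6 : i₀ * (2 * ∑ z ∈ Zs, (Cz z).card) = 2 * i₀ * ∑ z ∈ Zs, (Cz z).card := by ring
    omega
  obtain ⟨z, hzZ, hz⟩ := h3
  rw [hZs, mem_Fl] at hzZ
  obtain ⟨hz1, hz2⟩ := hzZ
  refine ⟨z, hz1, hz2, ?_⟩
  have hcount := H27InvE2.count a z
  rw [card_Fl, card_Fl, card_Fl, card_Fl, ← hCs] at hcount
  have hW : (Fl (fun w => IsConj z w ∧ w * a = a * w)).card ≤ i₀ := by
    refine le_trans (Finset.card_le_card ?_) hi
    intro w hw
    rw [mem_Fl] at hw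
    rw [hZs, mem_Fl]
    refine ⟨?_, hw.2⟩
    obtain ⟨g, hg⟩ := isConj_iff.mp hw.1
    rw [← hg]
    have := orderOf_injective (MulAut.conj g).toMonoidHom (MulAut.conj g).injective z
    rw [← hz1]
    simpa using this
  have hpos : 0 < (Cz z).card :=
    Finset.card_pos.mpr ⟨a, mem_Fl.mpr ⟨IsConj.refl a, hz2.symm⟩⟩
  rw [card_Fl]
  have h7 : (Fl (fun w => IsConj z w)).card * (Cz z).card ≤ (2 * i₀ ^ 2) * (Cz z).card := by
    calc (Fl (fun w => IsConj z w)).card * (Cz z).card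
        = Cs.card * (Fl (fun w => IsConj z w ∧ w * a = a * w)).card := hcount.symm
      _ ≤ (2 * i₀ * (Cz z).card) * i₀ := Nat.mul_le_mul hz hW
      _ = (2 * i₀ ^ 2) * (Cz z).card := by ring
  exact Nat.le_of_mul_le_mul_right h7 hpos

end Cfsg.Agent.Lib.H27InvE
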