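import Cfsg.Agent.Lib.H27InvDefs

set_option autoImplicit false

namespace Cfsg.Agent.Lib.H27InvE1

open Cfsg.Agent.Lib.H27InvDefs

theorem cover {Γ : Type*} [Group Γ] [Finite Γ] {a c : Γ} (ha : a * a = 1) (hc : IsConj a c) :
    c ∈ Nb a ∨ ∃ z : Γ, orderOf z = 2 ∧ z * a = a * z ∧ z * c = c * z := by
  have hcc : c * c = 1 := by
    obtain ⟨g, hg⟩ := isConj_iff.1 hc
    rw [← hg]
    calc g * a * g⁻¹ * (g * a * g⁻¹) = g * (a * a) * g⁻¹ := by group
      _ = 1 := by rw [ha]; group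
  have hainv : a⁻¹ = a := inv_eq_of_mul_eq_one_left ha
  have hcinv : c⁻¹ = c := inv_eq_of_mul_eq_one_left hcc
  by_cases ho : Odd (orderOf (a * c))
  · exact Or.inl ⟨hc, ho⟩
  right
  rw [Nat.not_odd_iff_even] at ho
  obtain ⟨k, hk⟩ := ho
  have hpos : 0 < orderOf (a * c) := orderOf_pos _
  have hk0 : k ≠ 0 := by omega
  have hz : orderOf ((a * c) ^ k) = 2 := by
    rw [orderOf_pow_of_dvd hk0 ⟨2, by omega⟩]
    rw [hk]
    have : k + k = 2 * k := by ring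
    rw [this]
    exact Nat.mul_div_cancel _ (Nat.pos_of_ne_zero hk0)
  have hzz : ((a * c) ^ k)⁻¹ = (a * c) ^ k := by
    apply inv_eq_of_mul_eq_one_left
    rw [← pow_two, ← hz, pow_orderOf_eq_one]
  have h1 : a * (a * c) * a⁻¹ = (a * c)⁻¹ := by
    rw [mul_inv_rev, hainv, hcinv, ← mul_assoc, ha, one_mul]
  have h2 : c * (a * c) * c⁻¹ = (a * c)⁻¹ := by
    rw [mul_inv_rev, hainv, hcinv]
    calc c * (a * c) * c = c * a * (c * c) := by group
      _ = c * a := by rw [hcc, mul_one]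
  refine ⟨(a * c) ^ k, hz, ?_, ?_⟩
  · have h3 : a * (a * c) ^ k * a⁻¹ = (a * c) ^ k := by
      rw [← conj_pow, h1, inv_pow, hzz]
    calc (a * c) ^ k * a = (a * (a * c) ^ k * a⁻¹) * a := by rw [h3]
      _ = a * (a * c) ^ k := by group
  · have h3 : c * (a * c) ^ k * c⁻¹ = (a * c) ^ k := by
      rw [← conj_pow, h2, inv_pow, hzz]
    calc (a * c) ^ k * c = (c * (a * c) ^ k * c⁻¹) * c := by rw [h3]
      _ = c * (a * c) ^ k := by group

end Cfsg.Agent.Lib.H27InvE1
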