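import Cfsg.Agent.Lib.H27InvP

set_option autoImplicit false

namespace Cfsg.Agent.Lib.H27InvF2

open Nat

theorem closure_eq_top {Γ : Type*} [Group Γ] (z : Γ) :
    Subgroup.closure {x : Subgroup.normalClosure {z} | IsConj z (x : Γ)} = ⊤ := by
  have h1 : Group.conjugatesOfSet {z} = {w : Γ | IsConj z w} := by
    ext w
    rw [Group.mem_conjugatesOfSet_iff]
    simp
  have h2 : Subgroup.normalClosure {z} = Subgroup.closure {w : Γ | IsConj z w} := by
    rw [← h1]; rfl
  rw [eq_top_iff]
  rintro ⟨x, hx⟩ _
  have hx' : x ∈ Subgroup.closure {w : Γ | IsConj z w} := by rw [← h2]; exact hx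
  have key : ∀ y (hy : y ∈ Subgroup.closure {w : Γ | IsConj z w}),
      ∀ hy' : y ∈ Subgroup.normalClosure {z},
      (⟨y, hy'⟩ : Subgroup.normalClosure {z}) ∈
        Subgroup.closure {x : Subgroup.normalClosure {z} | IsConj z (x : Γ)} := by
    intro y hy
    induction hy using Subgroup.closure_induction with
    | mem w hw => intro hy'; exact Subgroup.subset_closure hw
    | one => intro hy'; exact Subgroup.one_mem _
    | mul u v hu hv ihu ihv =>
      intro hy'
      have hu' : u ∈ Subgroup.normalClosure {z} := by rw [h2]; exact hu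
      have hv' : v ∈ Subgroup.normalClosure {z} := by rw [h2]; exact hv
      exact Subgroup.mul_mem _ (ihu hu') (ihv hv')
    | inv u hu ihu =>
      intro hy'
      have hu' : u ∈ Subgroup.normalClosure {z} := by rw [h2]; exact hu
      exact Subgroup.inv_mem _ (ihu hu')
  exact key x hx' hx

theorem card_X_le {Γ : Type*} [Group Γ] [Finite Γ] (z : Γ) :
    Nat.card {x : Subgroup.normalClosure {z} | IsConj z (x : Γ)} ≤ Nat.card {w : Γ // IsConj z w} := by
  refine Nat.card_le_card_of_injective
    (fun x : {x : Subgroup.normalClosure {z} | IsConj z (x : Γ)} =>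
      (⟨(x.1 : Γ), x.2⟩ : {w : Γ // IsConj z w})) ?_
  intro x y hxy
  apply Subtype.ext
  apply Subtype.ext
  have h := congrArg (fun w : {w : Γ // IsConj z w} => (w : Γ)) hxy
  exact h

theorem index_center_le {Γ : Type*} [Group Γ] [Finite Γ] (z : Γ) :
    (Subgroup.center (Subgroup.normalClosure {z})).index ≤ (Nat.card {w : Γ // IsConj z w})! := by
  refine le_trans (H27InvP.index_center_le
    {x : Subgroup.normalClosure {z} | IsConj z (x : Γ)} ?_ (closure_eq_top z))
    (Nat.factorial_le (card_X_le z))
  intro g x hx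
  have hx' : IsConj z (x : Γ) := hx
  show IsConj z ((g * x * g⁻¹ : Subgroup.normalClosure {z}) : Γ)
  refine hx'.trans ?_
  exact isConj_iff.2 ⟨(g : Γ), rfl⟩

end Cfsg.Agent.Lib.H27InvF2
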