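import Cfsg.Agent.Lib.H27InvDefs

set_option autoImplicit false

namespace Cfsg.Agent.Lib.H27InvG

open Cfsg.Agent.Lib.H27InvDefs
open scoped commutatorElement

theorem comm_left {G : Type*} [Group G] (g y c : G) (hc : c ∈ Subgroup.center G) :
    ⁅g * c, y⁆ = ⁅g, y⁆ := by
  have h1 : c * y * c⁻¹ = y := by
    rw [← Subgroup.mem_center_iff.mp hc y]; group
  rw [commutatorElement_def, commutatorElement_def]
  calc g * c * y * (g * c)⁻¹ * y⁻¹ = g * (c * y * c⁻¹) * g⁻¹ * y⁻¹ := by group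
    _ = g * y * g⁻¹ * y⁻¹ := by rw [h1]

theorem comm_right {G : Type*} [Group G] (x h c : G) (hc : c ∈ Subgroup.center G) :
    ⁅x, h * c⁆ = ⁅x, h⁆ := by
  have h1 : c * x⁻¹ * c⁻¹ = x⁻¹ := by
    rw [← Subgroup.mem_center_iff.mp hc x⁻¹]; group
  rw [commutatorElement_def, commutatorElement_def]
  calc x * (h * c) * x⁻¹ * (h * c)⁻¹ = x * h * (c * x⁻¹ * c⁻¹) * h⁻¹ := by group
    _ = x * h * x⁻¹ * h⁻¹ := by rw [h1]

theorem card_commutatorSet_le {G : Type*} [Group G] [Finite G] :
    Nat.card (commutatorSet G) ≤ (Subgroup.center G).index ^ 2 := by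
  classical
  let φ : (G ⧸ Subgroup.center G) × (G ⧸ Subgroup.center G) → G := fun x => ⁅x.1.out, x.2.out⁆
  have hex : ∀ e : commutatorSet G, ∃ x, φ x = (e : G) := by
    rintro ⟨e, g, h, rfl⟩
    refine ⟨((g : G ⧸ Subgroup.center G), (h : G ⧸ Subgroup.center G)), ?_⟩
    obtain ⟨c, hc⟩ := QuotientGroup.mk_out_eq_mul (Subgroup.center G) g
    obtain ⟨c', hc'⟩ := QuotientGroup.mk_out_eq_mul (Subgroup.center G) h
    show ⁅(g : G ⧸ Subgroup.center G).out, (h : G ⧸ Subgroup.center G).out⁆ = ⁅g, h⁆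
    rw [hc, hc', comm_left _ _ _ c.2, comm_right _ _ _ c'.2]
  choose ψ hψ using hex
  have hinj : Function.Injective ψ := by
    intro a b hab
    apply Subtype.ext
    rw [← hψ a, ← hψ b, hab]
  have := Nat.card_le_card_of_injective ψ hinj
  rw [Nat.card_prod] at this
  rw [sq]
  exact this

theorem schur (k : ℕ) : ∃ S, Sch k S := by
  refine ⟨k ^ (k * k ^ 2 + 1), ?_⟩
  intro G _ _ hk
  have h1 := Subgroup.card_commutator_dvd_index_center_pow G
  have hi : (Subgroup.center G).index ≠ 0 := Subgroup.index_ne_zero_of_finite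
  have hi1 : 1 ≤ (Subgroup.center G).index := Nat.pos_of_ne_zero hi
  have hn := card_commutatorSet_le (G := G)
  have h2 : Nat.card (commutator G) ≤
      (Subgroup.center G).index ^ ((Subgroup.center G).index * Nat.card (commutatorSet G) + 1) :=
    Nat.le_of_dvd (pow_pos hi1 _) h1
  refine h2.trans ?_
  calc (Subgroup.center G).index ^ ((Subgroup.center G).index * Nat.card (commutatorSet G) + 1)
      ≤ k ^ ((Subgroup.center G).index * Nat.card (commutatorSet G) + 1) :=
        Nat.pow_le_pow_left hk _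
    _ ≤ k ^ (k * k ^ 2 + 1) := by
        apply Nat.pow_le_pow_right (hi1.trans hk)
        apply Nat.add_le_add_right
        exact Nat.mul_le_mul hk (hn.trans (Nat.pow_le_pow_left hk 2))

end Cfsg.Agent.Lib.H27InvG
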