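import Cfsg.Agent.Lib.H27InvF1
import Cfsg.Agent.Lib.H27InvF2
import Cfsg.Agent.Lib.H27InvG

set_option autoImplicit false

namespace Cfsg.Agent.Lib.H27InvF

open Cfsg.Agent.Lib.H27InvDefs Nat

/-- An involution with at most `N₀` conjugates has a normal closure of bounded order. -/
theorem bound (N₀ : ℕ) : ∃ B, ∀ (Γ : Type) [Group Γ] [Finite Γ] (z : Γ), z * z = 1 →
    Nat.card {w : Γ // IsConj z w} ≤ N₀ → Nat.card (Subgroup.normalClosure {z}) ≤ B := by
  obtain ⟨S, hS⟩ := H27InvG.schur (N₀)!
  refine ⟨2 ^ N₀ * S, ?_⟩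
  intro Γ _ _ z hz hN
  have h1 : (Subgroup.center (Subgroup.normalClosure {z})).index ≤ (N₀)! :=
    le_trans (H27InvF2.index_center_le z) (Nat.factorial_le hN)
  have h2 : Nat.card (commutator (Subgroup.normalClosure {z})) ≤ S :=
    hS (Subgroup.normalClosure {z}) h1
  have hsurj : Function.Surjective (Abelianization.of (G := Subgroup.normalClosure {z})) :=
    QuotientGroup.mk_surjective
  have h3 : Nat.card (Abelianization (Subgroup.normalClosure {z})) ≤ 2 ^ N₀ := by
    refine H27InvF1.card_le_two_pow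
      (Abelianization.of '' {x : Subgroup.normalClosure {z} | IsConj z (x : Γ)}) N₀ ?_ ?_ ?_
    · refine le_trans (Nat.card_image_le (Set.toFinite _)) (le_trans (H27InvF2.card_X_le z) hN)
    · rintro _ ⟨x, hx, rfl⟩
      rw [← map_mul]
      have hx' : IsConj z (x : Γ) := hx
      obtain ⟨g, hg⟩ := isConj_iff.1 hx'
      have hxx : x * x = 1 := by
        apply Subtype.ext
        show (x : Γ) * (x : Γ) = 1
        rw [← hg]
        calc g * z * g⁻¹ * (g * z * g⁻¹) = g * (z * z) * g⁻¹ := by group
          _ = 1 := by rw [hz]; group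
      rw [hxx, map_one]
    · rw [← MonoidHom.map_closure, H27InvF2.closure_eq_top, Subgroup.map_top_of_surjective _ hsurj]
  have h4 := Subgroup.card_eq_card_quotient_mul_card_subgroup
    (commutator (Subgroup.normalClosure {z}))
  rw [h4]
  exact Nat.mul_le_mul h3 h2

end Cfsg.Agent.Lib.H27InvF
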