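import Mathlib

set_option autoImplicit false

namespace Cfsg.Agent.Lib.H27InvF1

theorem aux {A : Type*} [CommGroup A] [Finite A] (S : Finset A) (h2 : ∀ t ∈ S, t * t = 1) :
    Nat.card (Subgroup.closure (S : Set A)) ≤ 2 ^ S.card := by
  classical
  induction S using Finset.induction_on with
  | empty => simp
  | insert t S ht ih =>
    have ih' := ih (fun s hs => h2 s (Finset.mem_insert_of_mem hs))
    have ht2 : t * t = 1 := h2 t (Finset.mem_insert_self t S)
    rw [Finset.card_insert_of_notMem ht, Finset.coe_insert]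
    have e : Subgroup.closure (insert t (S : Set A)) =
        Subgroup.closure (S : Set A) ⊔ Subgroup.zpowers t := by
      rw [Set.insert_eq, Subgroup.closure_union, Subgroup.zpowers_eq_closure, sup_comm]
    rw [e]
    set K := Subgroup.closure (S : Set A)
    have h1 := Subgroup.relIndex_mul_relIndex ⊥ K (K ⊔ Subgroup.zpowers t) bot_le le_sup_left
    rw [Subgroup.relIndex_bot_left, Subgroup.relIndex_bot_left, Subgroup.relIndex_sup_left] at h1
    have h3 : K.relIndex (Subgroup.zpowers t) ∣ Nat.card (Subgroup.zpowers t) :=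
      Subgroup.relIndex_dvd_card _ _
    rw [Nat.card_zpowers] at h3
    have h4 : orderOf t ≤ 2 := orderOf_le_of_pow_eq_one (by norm_num) (by rw [pow_two]; exact ht2)
    have h5 : K.relIndex (Subgroup.zpowers t) ≤ 2 := (Nat.le_of_dvd (orderOf_pos t) h3).trans h4
    rw [← h1, pow_succ]
    exact Nat.mul_le_mul ih' h5

theorem card_le_two_pow {A : Type*} [CommGroup A] [Finite A] (T : Set A) (N : ℕ)
    (hT : Nat.card T ≤ N) (h2 : ∀ t ∈ T, t * t = 1) (hgen : Subgroup.closure T = ⊤) :
    Nat.card A ≤ 2 ^ N := by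
  classical
  have hfin : T.Finite := Set.toFinite T
  have h1 := aux hfin.toFinset (fun t ht => h2 t (hfin.mem_toFinset.mp ht))
  rw [hfin.coe_toFinset, hgen, Subgroup.card_top] at h1
  have h3 : hfin.toFinset.card = Nat.card T := (Nat.card_eq_card_finite_toFinset hfin).symm
  rw [h3] at h1
  exact h1.trans (Nat.pow_le_pow_right (by norm_num) hT)

end Cfsg.Agent.Lib.H27InvF1
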