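import Cfsg.Agent.Lib.H27InvA

set_option autoImplicit false

namespace Cfsg.Agent.Lib.H27InvH1

open Cfsg.Agent.Lib.H27InvDefs Nat

theorem conj_mem_Nb {Γ : Type*} [Group Γ] {a z b : Γ} (hza : z * a = a * z) (hb : b ∈ Nb a) :
    z * b * z⁻¹ ∈ Nb a := by
  refine ⟨hb.1.trans (isConj_iff.2 ⟨z, rfl⟩), ?_⟩
  have e : a * (z * b * z⁻¹) = z * (a * b) * z⁻¹ := by
    calc a * (z * b * z⁻¹) = (a * z) * b * z⁻¹ := by group
      _ = (z * a) * b * z⁻¹ := by rw [hza]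
      _ = z * (a * b) * z⁻¹ := by group
  rw [e]
  have h2 : orderOf (z * (a * b) * z⁻¹) = orderOf (a * b) :=
    orderOf_injective (MulAut.conj z).toMonoidHom (MulAut.conj z).injective (a * b)
  rw [h2]; exact hb.2

/-- the permutation of `Nb a` induced by `z ∈ C(a)` -/
def prm {Γ : Type*} [Group Γ] {a : Γ} (z : Γ) (hza : z * a = a * z) : Equiv.Perm (Nb a) where
  toFun b := ⟨z * b.1 * z⁻¹, conj_mem_Nb hza b.2⟩
  invFun b := ⟨z⁻¹ * b.1 * z⁻¹⁻¹, conj_mem_Nb (by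
    calc z⁻¹ * a = z⁻¹ * (a * z) * z⁻¹ := by group
      _ = z⁻¹ * (z * a) * z⁻¹ := by rw [hza]
      _ = a * z⁻¹ := by group) b.2⟩
  left_inv b := by
    apply Subtype.ext
    show z⁻¹ * (z * b.1 * z⁻¹) * z⁻¹⁻¹ = b.1
    group
  right_inv b := by
    apply Subtype.ext
    show z * (z⁻¹ * b.1 * z⁻¹⁻¹) * z⁻¹ = b.1
    group

theorem card_invol_le {Γ : Type*} [Group Γ] [Finite Γ] {a : Γ} (ha : a * a = 1) (hg : Gen a)
    (hz : NoZ Γ) :
    Nat.card {z : Γ // orderOf z = 2 ∧ z * a = a * z} ≤ (Nat.card (Nb a))! := by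
  rw [← Nat.card_perm]
  refine Nat.card_le_card_of_injective
    (fun z : {z : Γ // orderOf z = 2 ∧ z * a = a * z} => prm z.1 z.2.2) ?_
  rintro ⟨z, hz2, hza⟩ ⟨z', hz2', hza'⟩ h
  apply Subtype.ext
  show z = z'
  have hzz : z * z = 1 := by rw [← pow_two, ← hz2, pow_orderOf_eq_one]
  have hzz' : z' * z' = 1 := by rw [← pow_two, ← hz2', pow_orderOf_eq_one]
  have hcomm : ∀ b ∈ Nb a, (z'⁻¹ * z) * b = b * (z'⁻¹ * z) := by
    intro b hb
    have h1 := congrArg Subtype.val (congrFun (congrArg (fun e : Equiv.Perm (Nb a) => (e : Nb a → Nb a)) h) ⟨b, hb⟩)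
    have h2 : z * b * z⁻¹ = z' * b * z'⁻¹ := h1
    calc (z'⁻¹ * z) * b = z'⁻¹ * (z * b * z⁻¹) * z := by group
      _ = z'⁻¹ * (z' * b * z'⁻¹) * z := by rw [h2]
      _ = b * (z'⁻¹ * z) := by group
  have hcen : z'⁻¹ * z ∈ Subgroup.center Γ := by
    rw [Subgroup.mem_center_iff]
    intro g
    have hle : Subgroup.closure (Nb a) ≤ Subgroup.centralizer {z'⁻¹ * z} := by
      rw [Subgroup.closure_le]
      intro b hb
      rw [SetLike.mem_coe, Subgroup.mem_centralizer_iff]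
      intro y hy
      rw [Set.mem_singleton_iff] at hy
      rw [hy]; exact hcomm b hb
    have hgm : g ∈ Subgroup.centralizer {z'⁻¹ * z} := hle (by rw [H27InvA.closure_Nb ha hg]; trivial)
    rw [Subgroup.mem_centralizer_iff] at hgm
    exact (hgm _ rfl).symm
  have hcc : (z'⁻¹ * z) * (z'⁻¹ * z) = 1 := by
    have h1 := (Subgroup.mem_center_iff.1 hcen) z'⁻¹
    -- z'⁻¹ * c = c * z'⁻¹
    have hzi : z'⁻¹ = z' := inv_eq_of_mul_eq_one_left hzz'
    calc (z'⁻¹ * z) * (z'⁻¹ * z) = ((z'⁻¹ * z) * z'⁻¹) * z := by group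
      _ = (z'⁻¹ * (z'⁻¹ * z)) * z := by rw [h1]
      _ = (z'⁻¹ * z'⁻¹) * (z * z) := by group
      _ = 1 := by rw [hzz, hzi, hzz', one_mul]
  have h1 := hz _ hcen hcc
  rw [inv_mul_eq_one] at h1
  exact h1.symm

end Cfsg.Agent.Lib.H27InvH1
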