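import Mathlib

set_option autoImplicit false

namespace Cfsg.Agent.Lib.H27InvP

open Nat

theorem index_center_le {E : Type*} [Group E] [Finite E] (X : Set E)
    (hX : ∀ (g x : E), x ∈ X → g * x * g⁻¹ ∈ X) (hgen : Subgroup.closure X = ⊤) :
    (Subgroup.center E).index ≤ (Nat.card X)! := by
  classical
  let act : MulAction E X :=
    { smul := fun g x => ⟨g * x.1 * g⁻¹, hX g x.1 x.2⟩
      one_smul := by
        rintro ⟨x, hx⟩
        apply Subtype.ext
        show 1 * x * 1⁻¹ = x
        simp
      mul_smul := by
        rintro g h ⟨x, hx⟩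
        apply Subtype.ext
        show (g * h) * x * (g * h)⁻¹ = g * (h * x * h⁻¹) * g⁻¹
        group }
  let f : E →* Equiv.Perm X := MulAction.toPermHom E X
  have hker : f.ker ≤ Subgroup.center E := by
    intro g hg
    rw [MonoidHom.mem_ker] at hg
    have h1 : ∀ x ∈ X, x * g = g * x := by
      intro x hx
      have h0 := congrArg (fun σ : Equiv.Perm X => ((σ ⟨x, hx⟩ : X) : E)) hg
      have h0' : g * x * g⁻¹ = x := h0
      calc x * g = (g * x * g⁻¹) * g := by rw [h0']
        _ = g * x := by group
    have h2 : Subgroup.closure X ≤ Subgroup.centralizer {g} := by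
      rw [Subgroup.closure_le]
      intro x hx
      rw [SetLike.mem_coe, Subgroup.mem_centralizer_singleton_iff]
      exact h1 x hx
    rw [Subgroup.mem_center_iff]
    intro y
    have h3 : y ∈ Subgroup.centralizer {g} := h2 (hgen ▸ Subgroup.mem_top y)
    rw [Subgroup.mem_centralizer_singleton_iff] at h3
    exact h3
  have h1 : (Subgroup.center E).index ∣ f.ker.index := Subgroup.index_dvd_of_le hker
  have h2 : (Subgroup.center E).index ≤ f.ker.index :=
    Nat.le_of_dvd (Nat.pos_of_ne_zero Subgroup.index_ne_zero_of_finite) h1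
  rw [Subgroup.index_ker] at h2
  have h3 : Nat.card f.range ≤ Nat.card (Equiv.Perm X) := Subgroup.card_le_card_group _
  have h4 : Nat.card (Equiv.Perm X) = (Nat.card X)! := by
    have := Fintype.ofFinite X
    rw [Nat.card_eq_fintype_card, Fintype.card_perm, Nat.card_eq_fintype_card]
  rw [h4] at h3
  exact h2.trans h3

end Cfsg.Agent.Lib.H27InvP
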