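import Cfsg.Agent.Lib.H27InvDefs
import Cfsg.Agent.Lib.H27InvP

set_option autoImplicit false

namespace Cfsg.Agent.Lib.H27InvH2

open Cfsg.Agent.Lib.H27InvDefs Nat

theorem index_center_le {Γ : Type*} [Group Γ] [Finite Γ] {a : Γ} (hg : Gen a) :
    (Subgroup.center Γ).index ≤ (Nat.card {c : Γ // IsConj a c})! := by
  have hX : ∀ (g x : Γ), x ∈ {c : Γ | IsConj a c} → g * x * g⁻¹ ∈ {c : Γ | IsConj a c} := by
    intro g x hx
    exact IsConj.trans hx (isConj_iff.mpr ⟨g, rfl⟩)
  have hnorm : (Subgroup.closure {c : Γ | IsConj a c}).Normal := by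
    constructor
    intro n hn g
    have hle : Subgroup.closure {c : Γ | IsConj a c} ≤
        (Subgroup.closure {c : Γ | IsConj a c}).comap (MulAut.conj g).toMonoidHom := by
      rw [Subgroup.closure_le]
      intro x hx
      show g * x * g⁻¹ ∈ Subgroup.closure {c : Γ | IsConj a c}
      exact Subgroup.subset_closure (hX g x hx)
    exact hle hn
  have hgen : Subgroup.closure {c : Γ | IsConj a c} = ⊤ :=
    hg _ hnorm (Subgroup.subset_closure (IsConj.refl a))
  exact H27InvP.index_center_le {c : Γ | IsConj a c} hX hgen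

end Cfsg.Agent.Lib.H27InvH2
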