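import Mathlib

set_option autoImplicit false

namespace Cfsg.Agent.Lib.H27InvQ

theorem index_le_two {Γ : Type*} [Group Γ] [Finite Γ] (N : Subgroup Γ) [N.Normal] {a : Γ}
    (ha : a * a = 1) (h : N ⊔ Subgroup.zpowers a = ⊤) : N.index ≤ 2 := by
  rw [← Subgroup.relIndex_top_right, ← h, Subgroup.relIndex_sup_left]
  have h1 : N.relIndex (Subgroup.zpowers a) ∣ Nat.card (Subgroup.zpowers a) :=
    Subgroup.relIndex_dvd_card _ _
  rw [Nat.card_zpowers] at h1
  have h2 : orderOf a ≤ 2 := orderOf_le_of_pow_eq_one (by norm_num) (by rw [pow_two]; exact ha)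
  exact (Nat.le_of_dvd (orderOf_pos a) h1).trans h2

end Cfsg.Agent.Lib.H27InvQ
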