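import Cfsg.Agent.Lib.H27InvDefs
import Cfsg.Agent.Lib.H27InvQ

set_option autoImplicit false

namespace Cfsg.Agent.Lib.H27InvH3

open Cfsg.Agent.Lib.H27InvDefs
open scoped commutatorElement

theorem card_le {Γ : Type*} [Group Γ] [Finite Γ] {a : Γ} (ha : a * a = 1) (hg : Gen a) :
    Nat.card Γ ≤ 2 * Nat.card (commutator Γ) := by
  have hnorm : (commutator Γ ⊔ Subgroup.zpowers a).Normal := by
    constructor
    intro m hm g
    have h1 : g * m * g⁻¹ = ⁅g, m⁆ * m := by
      rw [commutatorElement_def]; group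
    rw [h1]
    refine Subgroup.mul_mem _ ?_ hm
    apply (le_sup_left : commutator Γ ≤ commutator Γ ⊔ Subgroup.zpowers a)
    rw [commutator_def]
    exact Subgroup.commutator_mem_commutator (Subgroup.mem_top g) (Subgroup.mem_top m)
  have htop : commutator Γ ⊔ Subgroup.zpowers a = ⊤ :=
    hg _ hnorm ((le_sup_right : Subgroup.zpowers a ≤ commutator Γ ⊔ Subgroup.zpowers a)
      (Subgroup.mem_zpowers a))
  have h2 := H27InvQ.index_le_two (commutator Γ) ha htop
  rw [← Subgroup.index_mul_card (commutator Γ)]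
  exact Nat.mul_le_mul_right _ h2

end Cfsg.Agent.Lib.H27InvH3
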