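import Cfsg.Agent.Lib.H27InvDefs

set_option autoImplicit false

namespace Cfsg.Agent.Lib.H27InvI1

open Cfsg.Agent.Lib.H27InvDefs

theorem orderOf_conj' {Γ : Type*} [Group Γ] (g x : Γ) : orderOf (g * x * g⁻¹) = orderOf x := by
  have : g * x * g⁻¹ = MulAut.conj g x := by simp
  rw [this, MulEquiv.orderOf_eq]

instance rad_normal {Γ : Type*} [Group Γ] : (Rad Γ).Normal := by
  constructor
  intro r hr g
  obtain ⟨h1, h2⟩ := Subgroup.mem_inf.1 hr
  refine Subgroup.mem_inf.2 ⟨(Cfsg.Agent.Lib.Helper1Fitting.pCore_normal 2).conj_mem r h1 g, ?_⟩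
  rw [Subgroup.mem_centralizer_iff] at h2 ⊢
  intro x hx
  have hy : g⁻¹ * x * g ∈ {x : Γ | Odd (orderOf x)} := by
    have := orderOf_conj' g⁻¹ x
    rw [inv_inv] at this
    show Odd (orderOf (g⁻¹ * x * g))
    rw [this]; exact hx
  have h3 := h2 _ hy
  calc x * (g * r * g⁻¹) = g * ((g⁻¹ * x * g) * r) * g⁻¹ := by group
    _ = g * (r * (g⁻¹ * x * g)) * g⁻¹ := by rw [h3]
    _ = _ := by group

theorem rad_isPGroup {Γ : Type*} [Group Γ] : IsPGroup 2 (Rad Γ) :=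
  (Cfsg.Agent.Lib.Helper27Core.pCore_isPGroup 2).to_le inf_le_left

theorem noZ_quot {Γ : Type*} [Group Γ] [Finite Γ] : NoZ (Γ ⧸ Rad Γ) := by
  intro w hw hww
  obtain ⟨v, rfl⟩ := QuotientGroup.mk_surjective w
  rw [Subgroup.mem_center_iff] at hw
  have hcen : ∀ g : Γ, g * v * g⁻¹ * v⁻¹ ∈ Rad Γ := by
    intro g
    rw [← QuotientGroup.eq_one_iff]
    have e : ((g * v * g⁻¹ * v⁻¹ : Γ) : Γ ⧸ Rad Γ) =
        (g : Γ ⧸ Rad Γ) * (v : Γ ⧸ Rad Γ) * (g : Γ ⧸ Rad Γ)⁻¹ * (v : Γ ⧸ Rad Γ)⁻¹ := rfl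
    rw [e, hw g]
    group
  -- (1)
  have hzn : (Subgroup.zpowers (QuotientGroup.mk v : Γ ⧸ Rad Γ)).Normal := by
    constructor
    intro x hx g
    obtain ⟨i, rfl⟩ := Subgroup.mem_zpowers_iff.1 hx
    have hc : Commute g (QuotientGroup.mk v : Γ ⧸ Rad Γ) := hw g
    have := (hc.zpow_right i).eq
    rw [this, mul_inv_cancel_right]
    exact Subgroup.zpow_mem _ (Subgroup.mem_zpowers _) i
  have hWn : ((Subgroup.zpowers (QuotientGroup.mk v : Γ ⧸ Rad Γ)).comap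
      (QuotientGroup.mk' (Rad Γ))).Normal := hzn.comap _
  have hWp : IsPGroup 2 ((Subgroup.zpowers (QuotientGroup.mk v : Γ ⧸ Rad Γ)).comap
      (QuotientGroup.mk' (Rad Γ))) := by
    rintro ⟨u, hu⟩
    obtain ⟨i, hi⟩ := Subgroup.mem_zpowers_iff.1 (Subgroup.mem_comap.1 hu)
    have hu2 : u ^ 2 ∈ Rad Γ := by
      rw [← QuotientGroup.eq_one_iff]
      have e : ((u ^ 2 : Γ) : Γ ⧸ Rad Γ) = (QuotientGroup.mk' (Rad Γ) u) ^ 2 := rfl
      rw [e, ← hi, ← zpow_natCast, ← zpow_mul, mul_comm, zpow_mul, zpow_natCast, sq, hww, one_zpow]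
    obtain ⟨k, hk⟩ := rad_isPGroup (Γ := Γ) ⟨u ^ 2, hu2⟩
    refine ⟨k + 1, Subtype.ext ?_⟩
    have hk' : (u ^ 2) ^ 2 ^ k = 1 := congrArg Subtype.val hk
    show u ^ 2 ^ (k + 1) = 1
    rw [pow_succ, mul_comm, pow_mul, hk']
  have hvO : v ∈ Cfsg.pCore 2 Γ :=
    Cfsg.Agent.Lib.Helper27Core.le_pCore hWn hWp
      (Subgroup.mem_comap.2 (Subgroup.mem_zpowers _))
  -- (2)
  have hvC : v ∈ Subgroup.centralizer {x : Γ | Odd (orderOf x)} := by
    rw [Subgroup.mem_centralizer_iff]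
    intro x hx
    have hr : v⁻¹ * (x * v * x⁻¹) ∈ Rad Γ := by
      have h1 := (rad_normal (Γ := Γ)).conj_mem _ (hcen x) v⁻¹
      have e : v⁻¹ * (x * v * x⁻¹ * v⁻¹) * v⁻¹⁻¹ = v⁻¹ * (x * v * x⁻¹) := by group
      rwa [e] at h1
    set r := v⁻¹ * (x * v * x⁻¹) with hrdef
    have hxr : x * r = r * x := by
      have := (Subgroup.mem_inf.1 hr).2
      rw [Subgroup.mem_centralizer_iff] at this
      exact this x hx
    have hxv : x * v * x⁻¹ = v * r := by rw [hrdef]; group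
    have hind : ∀ k : ℕ, x ^ k * v * (x ^ k)⁻¹ = v * r ^ k := by
      intro k
      induction k with
      | zero => simp
      | succ k ih =>
        have hc : Commute x (r ^ k) := (show Commute x r from hxr).pow_right k
        calc x ^ (k + 1) * v * (x ^ (k + 1))⁻¹ = x * (x ^ k * v * (x ^ k)⁻¹) * x⁻¹ := by
              rw [pow_succ']; group
          _ = x * (v * r ^ k) * x⁻¹ := by rw [ih]
          _ = (x * v * x⁻¹) * (x * r ^ k * x⁻¹) := by group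
          _ = (v * r) * r ^ k := by rw [hxv, hc.eq, mul_inv_cancel_right]
          _ = v * r ^ (k + 1) := by rw [pow_succ', mul_assoc]
    have hrm : r ^ orderOf x = 1 := by
      have := hind (orderOf x)
      rw [pow_orderOf_eq_one, one_mul, inv_one, mul_one] at this
      exact (mul_eq_left.1 this.symm)
    obtain ⟨j, hj⟩ := rad_isPGroup (Γ := Γ) ⟨r, hr⟩
    have hj' : r ^ 2 ^ j = 1 := congrArg Subtype.val hj
    have hg := pow_gcd_eq_one.2 ⟨hrm, hj'⟩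
    have hcop : Nat.gcd (orderOf x) (2 ^ j) = 1 := by
      have : Nat.Coprime (orderOf x) 2 := (Nat.coprime_two_right).2 hx
      exact Nat.Coprime.pow_right j this
    rw [hcop, pow_one] at hg
    rw [hg, mul_one] at hxv
    calc x * v = (x * v * x⁻¹) * x := by group
      _ = v * x := by rw [hxv]
  exact (QuotientGroup.eq_one_iff v).2 (Subgroup.mem_inf.2 ⟨hvO, hvC⟩)

end Cfsg.Agent.Lib.H27InvI1
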