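import Cfsg.Agent.Lib.H27InvA
import Cfsg.Agent.Lib.H27InvQ

set_option autoImplicit false

namespace Cfsg.Agent.Lib.H27InvI2a

open Cfsg.Agent.Lib.H27InvDefs

instance od_normal {Γ : Type*} [Group Γ] : (Od Γ).Normal := by
  constructor
  intro n hn g
  have hmap : (Od Γ).map (MulAut.conj g).toMonoidHom ≤ Od Γ := by
    unfold Od
    rw [MonoidHom.map_closure, Subgroup.closure_le]
    rintro _ ⟨x, hx, rfl⟩
    apply Subgroup.subset_closure
    have h2 : orderOf ((MulAut.conj g).toMonoidHom x) = orderOf x :=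
      orderOf_injective (MulAut.conj g).toMonoidHom (MulAut.conj g).injective x
    show Odd (orderOf ((MulAut.conj g).toMonoidHom x))
    rw [h2]; exact hx
  exact hmap ⟨n, hn, rfl⟩

theorem index_le {Γ : Type*} [Group Γ] [Finite Γ] {a : Γ} (ha : a * a = 1) (hg : Gen a) :
    (Od Γ).index ≤ 2 := by
  apply H27InvQ.index_le_two (Od Γ) ha
  rw [eq_top_iff, ← H27InvA.closure_Nb ha hg, Subgroup.closure_le]
  intro b hb
  have e : b = a⁻¹ * (a * b) := by group
  rw [SetLike.mem_coe, e]
  refine Subgroup.mul_mem _ (Subgroup.inv_mem _ (Subgroup.mem_sup_right (Subgroup.mem_zpowers a))) ?_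
  exact Subgroup.mem_sup_left (Subgroup.subset_closure hb.2)

end Cfsg.Agent.Lib.H27InvI2a
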