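import Mathlib

set_option autoImplicit false

namespace Cfsg.Agent.Lib.H27InvI2b

theorem mem_commutator {H : Type*} [Group H] [Finite H]
    (hgen : Subgroup.closure {x : H | Odd (orderOf x)} = ⊤) (x : H) (k : ℕ) (hx : x ^ (2 ^ k) = 1) :
    x ∈ commutator H := by
  let O : Subgroup (Abelianization H) :=
    { carrier := {y | ∃ m : ℕ, Odd m ∧ y ^ m = 1}
      one_mem' := ⟨1, odd_one, by simp⟩
      mul_mem' := by
        rintro a b ⟨m, hm, ha⟩ ⟨n, hn, hb⟩
        refine ⟨m * n, hm.mul hn, ?_⟩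
        rw [mul_pow, pow_mul, ha, one_pow, mul_comm m n, pow_mul, hb, one_pow, one_mul]
      inv_mem' := by
        rintro a ⟨m, hm, ha⟩
        exact ⟨m, hm, by rw [inv_pow, ha, inv_one]⟩ }
  have hle : Subgroup.closure {x : H | Odd (orderOf x)} ≤ O.comap Abelianization.of := by
    rw [Subgroup.closure_le]
    intro y hy
    refine ⟨orderOf y, hy, ?_⟩
    rw [← map_pow, pow_orderOf_eq_one, map_one]
  have hxO : Abelianization.of x ∈ O := by
    have : x ∈ Subgroup.closure {x : H | Odd (orderOf x)} := by rw [hgen]; trivial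
    exact hle this
  obtain ⟨m, hm, hy⟩ := hxO
  have hy2 : (Abelianization.of x) ^ (2 ^ k) = 1 := by rw [← map_pow, hx, map_one]
  have hcop : Nat.Coprime m (2 ^ k) := by
    apply Nat.Coprime.pow_right
    exact (Nat.coprime_two_right).mpr hm
  have h3 : (Abelianization.of x) ^ (Nat.gcd m (2 ^ k)) = 1 := pow_gcd_eq_one.mpr ⟨hy, hy2⟩
  rw [hcop, pow_one] at h3
  rw [← Abelianization.ker_of, MonoidHom.mem_ker]
  exact h3

theorem closure_odd_top {Γ : Type*} [Group Γ] :
    Subgroup.closure {x : Subgroup.closure {x : Γ | Odd (orderOf x)} | Odd (orderOf x)} = ⊤ := by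
  have : {x : Subgroup.closure {x : Γ | Odd (orderOf x)} | Odd (orderOf x)} =
      ((↑) ⁻¹' {x : Γ | Odd (orderOf x)}) := by
    ext x
    simp [Subgroup.orderOf_coe]
  rw [this]
  exact Subgroup.closure_closure_coe_preimage

end Cfsg.Agent.Lib.H27InvI2b
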