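import Cfsg.Agent.Lib.H27InvI1
import Cfsg.Agent.Lib.H27InvI2a
import Cfsg.Agent.Lib.H27InvI2b

set_option autoImplicit false

namespace Cfsg.Agent.Lib.H27InvI2

open Cfsg.Agent.Lib.H27InvDefs

theorem card_rad_le {Γ : Type} [Group Γ] [Finite Γ] {a : Γ} (ha : a * a = 1) (hg : Gen a)
    (k S : ℕ) (hS : Sch k S) (hk : (Rad Γ).index ≤ k) :
    Nat.card (Rad Γ) ≤ 2 * S := by
  -- (1)
  have h1 : (Rad Γ).subgroupOf (Od Γ) ≤ Subgroup.center (Od Γ) := by
    intro r hr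
    have hr' : (r : Γ) ∈ Rad Γ := Subgroup.mem_subgroupOf.1 hr
    have hc := (Subgroup.mem_inf.1 hr').2
    rw [Subgroup.mem_centralizer_iff] at hc
    have hle : Od Γ ≤ Subgroup.centralizer {(r : Γ)} := by
      unfold Od
      rw [Subgroup.closure_le]
      intro x hx
      exact Subgroup.mem_centralizer_singleton_iff.2 (hc x hx)
    rw [Subgroup.mem_center_iff]
    intro y
    apply Subtype.ext
    exact Subgroup.mem_centralizer_singleton_iff.1 (hle y.2)
  -- (2)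
  have h2 : (Subgroup.center (Od Γ)).index ≤ k := by
    have d1 : (Subgroup.center (Od Γ)).index ∣ ((Rad Γ).subgroupOf (Od Γ)).index :=
      Subgroup.index_dvd_of_le h1
    have d2 : ((Rad Γ).subgroupOf (Od Γ)).index ∣ (Rad Γ).index :=
      Subgroup.relIndex_dvd_index_of_normal (Rad Γ) (Od Γ)
    exact (Nat.le_of_dvd (Nat.pos_of_ne_zero Subgroup.index_ne_zero_of_finite) (d1.trans d2)).trans hk
  have h2' := hS (Od Γ) h2
  -- (3)
  have h3 : (Rad Γ).subgroupOf (Od Γ) ≤ commutator (Od Γ) := by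
    intro r hr
    have hr' : (r : Γ) ∈ Rad Γ := Subgroup.mem_subgroupOf.1 hr
    obtain ⟨j, hj⟩ := H27InvI1.rad_isPGroup (Γ := Γ) ⟨(r : Γ), hr'⟩
    have hj' : (r : Γ) ^ 2 ^ j = 1 := congrArg Subtype.val hj
    exact H27InvI2b.mem_commutator (H := Od Γ) H27InvI2b.closure_odd_top r j (Subtype.ext hj')
  have h3' : Nat.card ((Rad Γ).subgroupOf (Od Γ)) ≤ S := (Subgroup.card_le_of_le h3).trans h2'
  -- (4)
  have c1 : Nat.card ((Rad Γ).subgroupOf (Od Γ)) = Nat.card (Rad Γ ⊓ Od Γ : Subgroup Γ) := by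
    rw [← Subgroup.inf_subgroupOf_right]
    exact Nat.card_congr (Subgroup.subgroupOfEquivOfLe inf_le_right).toEquiv
  have c2 : Nat.card ((Od Γ).subgroupOf (Rad Γ)) = Nat.card (Rad Γ ⊓ Od Γ : Subgroup Γ) := by
    rw [← Subgroup.inf_subgroupOf_left]
    exact Nat.card_congr (Subgroup.subgroupOfEquivOfLe inf_le_left).toEquiv
  have c3 := Subgroup.card_mul_index ((Od Γ).subgroupOf (Rad Γ))
  have c4 : ((Od Γ).subgroupOf (Rad Γ)).index ≤ 2 := by
    have d : ((Od Γ).subgroupOf (Rad Γ)).index ∣ (Od Γ).index :=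
      Subgroup.relIndex_dvd_index_of_normal (Od Γ) (Rad Γ)
    exact (Nat.le_of_dvd (Nat.pos_of_ne_zero Subgroup.index_ne_zero_of_finite) d).trans
      (H27InvI2a.index_le ha hg)
  rw [← c3, c2, ← c1, mul_comm]
  exact Nat.mul_le_mul c4 h3'

end Cfsg.Agent.Lib.H27InvI2
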