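import Cfsg.Agent.Lib.H27InvMem

set_option autoImplicit false

namespace Cfsg.Agent.Lib.H27InvJ

open Cfsg.Agent.Lib.H27InvDefs Cfsg.Agent.Lib.Helper27EngA

/-- TRANSLATION to the semidirect product. -/
theorem translate (G : Type) [Group G] [Finite G] (α : MulAut G) (h2 : orderOf α = 2)
    (hG : Subgroup.closure (Set.range (fun c : G => c * (α c)⁻¹)) = ⊤) :
    ∃ (Γ : Type) (_ : Group Γ) (_ : Finite Γ) (a : Γ), a * a = 1 ∧ Gen a ∧
      Nat.card (Nb a) ≤ Nat.card {g : G // Odd (orderOf g) ∧ α g = g⁻¹} ∧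
      Nat.card G ≤ Nat.card Γ := by
  obtain ⟨f, hf⟩ : ∃ f : G → G, f = fun c : G => c * (α c)⁻¹ := ⟨_, rfl⟩
  rw [← hf] at hG
  have hfa : ∀ c, f c = c * (α c)⁻¹ := fun c => by rw [hf]
  let φ : (Subgroup.zpowers α) →* MulAut G := (Subgroup.zpowers α).subtype
  have hfin : Finite (G ⋊[φ] (Subgroup.zpowers α)) :=
    Finite.of_equiv _ SemidirectProduct.equivProd.symm
  let a' : Subgroup.zpowers α := ⟨α, Subgroup.mem_zpowers α⟩
  let a : G ⋊[φ] (Subgroup.zpowers α) := SemidirectProduct.inr a'
  have hcomm : ∀ z : Subgroup.zpowers α, z * a' = a' * z := by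
    intro z
    obtain ⟨i, hi⟩ := Subgroup.mem_zpowers_iff.mp z.2
    apply Subtype.ext
    show (z : MulAut G) * α = α * (z : MulAut G)
    rw [← hi]
    exact ((Commute.refl α).zpow_left i).eq
  have hF : ∀ x : G ⋊[φ] (Subgroup.zpowers α), F a x = SemidirectProduct.inl (f x.left) := by
    intro x
    have hx := SemidirectProduct.inl_left_mul_inr_right x
    have h1 : (SemidirectProduct.inr x.right : G ⋊[φ] (Subgroup.zpowers α)) * a =
        a * SemidirectProduct.inr x.right := by
      show SemidirectProduct.inr x.right * SemidirectProduct.inr a' =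
        SemidirectProduct.inr a' * SemidirectProduct.inr x.right
      rw [← map_mul, ← map_mul, hcomm]
    have h2 : (SemidirectProduct.inl (φ a' (x.left)⁻¹) : G ⋊[φ] (Subgroup.zpowers α)) =
        a * SemidirectProduct.inl (x.left)⁻¹ * a⁻¹ := by
      rw [SemidirectProduct.inl_aut]
      show _ = SemidirectProduct.inr a' * SemidirectProduct.inl (x.left)⁻¹ *
        (SemidirectProduct.inr a')⁻¹
      rw [map_inv SemidirectProduct.inr]
    have h3 : φ a' (x.left)⁻¹ = (α x.left)⁻¹ := by
      show α (x.left)⁻¹ = (α x.left)⁻¹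
      rw [map_inv]
    rw [hfa, map_mul, ← h3, h2]
    unfold F
    conv_lhs => rw [← hx]
    rw [map_inv]
    have e : ∀ (p q r : G ⋊[φ] (Subgroup.zpowers α)), q * r = r * q →
        p * q * r * (p * q)⁻¹ * r⁻¹ = p * (r * p⁻¹ * r⁻¹) := by
      intro p q r hqr
      have : p * q * r * (p * q)⁻¹ * r⁻¹ = p * (q * r) * q⁻¹ * p⁻¹ * r⁻¹ := by group
      rw [this, hqr]
      group
    exact e _ _ _ h1
  have hgen : ∀ N : Subgroup (G ⋊[φ] (Subgroup.zpowers α)), N.Normal → a ∈ N → N = ⊤ := by
    intro N hN haN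
    have h1 : Subgroup.closure (Set.range f) ≤ N.comap SemidirectProduct.inl := by
      rw [Subgroup.closure_le]
      rintro _ ⟨g, rfl⟩
      show SemidirectProduct.inl (f g) ∈ N
      have h2 := hF (SemidirectProduct.inl g)
      rw [SemidirectProduct.left_inl] at h2
      rw [← h2]
      unfold F
      exact N.mul_mem (hN.conj_mem a haN _) (N.inv_mem haN)
    rw [hG] at h1
    rw [eq_top_iff]
    intro x _
    rw [← SemidirectProduct.inl_left_mul_inr_right x]
    refine N.mul_mem (h1 (Subgroup.mem_top x.left)) ?_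
    obtain ⟨i, hi⟩ := Subgroup.mem_zpowers_iff.mp x.right.2
    have h3 : x.right = a' ^ i := by
      apply Subtype.ext
      rw [Subgroup.coe_zpow]
      exact hi.symm
    rw [h3, map_zpow]
    exact N.zpow_mem haN i
  have haa : a * a = 1 := by
    show (SemidirectProduct.inr a' : G ⋊[φ] (Subgroup.zpowers α)) * SemidirectProduct.inr a' = 1
    rw [← map_mul]
    have : a' * a' = 1 := by
      apply Subtype.ext
      show α * α = 1
      rw [← pow_two, ← h2, pow_orderOf_eq_one]
    rw [this, map_one]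
  have key : ∀ b ∈ Nb a, a * b = SemidirectProduct.inl (a * b).left ∧
      Odd (orderOf (a * b).left) ∧ α (a * b).left = ((a * b).left)⁻¹ := by
    intro b hb
    obtain ⟨x, hx⟩ := isConj_iff.1 hb.1
    have hbb := H27InvMem.sq_of_mem haa hb
    have h1 : b * a⁻¹ = SemidirectProduct.inl (f x.left) := by
      rw [← hF x, ← hx]
      rfl
    have h3 : a * b = SemidirectProduct.inl ((f x.left)⁻¹) := by
      rw [map_inv, ← h1, mul_inv_rev, inv_inv]
      congr 1
      exact (inv_eq_of_mul_eq_one_left hbb).symm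
    have h4 : (a * b).left = (f x.left)⁻¹ := by
      rw [h3, SemidirectProduct.left_inl]
    rw [h4]
    refine ⟨h3, ?_, ?_⟩
    · have := hb.2
      rw [h3, orderOf_injective _ SemidirectProduct.inl_injective] at this
      exact this
    · have h5 := H27InvMem.inverts haa hb
      rw [h3] at h5
      have h6 : (SemidirectProduct.inl (φ a' (f x.left)⁻¹) : G ⋊[φ] (Subgroup.zpowers α)) =
          a * SemidirectProduct.inl (f x.left)⁻¹ * a⁻¹ := by
        rw [SemidirectProduct.inl_aut]
        show _ = SemidirectProduct.inr a' * SemidirectProduct.inl (f x.left)⁻¹ *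
          (SemidirectProduct.inr a')⁻¹
        rw [map_inv SemidirectProduct.inr]
      have h7 : (SemidirectProduct.inl (φ a' (f x.left)⁻¹) : G ⋊[φ] (Subgroup.zpowers α)) =
          SemidirectProduct.inl ((f x.left)⁻¹)⁻¹ := by
        rw [h6, h5]; simp only [map_inv]
      exact SemidirectProduct.inl_injective h7
  refine ⟨G ⋊[φ] (Subgroup.zpowers α), inferInstance, hfin, a, haa, hgen, ?_, ?_⟩
  · apply Nat.card_le_card_of_injective
      (fun b : Nb a => (⟨(a * b.1).left, (key b.1 b.2).2⟩ :
        {g : G // Odd (orderOf g) ∧ α g = g⁻¹}))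
    intro b b' hbb'
    have h1 : (a * b.1).left = (a * b'.1).left := congrArg Subtype.val hbb'
    have h2 : a * b.1 = a * b'.1 := by
      rw [(key b.1 b.2).1, (key b'.1 b'.2).1, h1]
    exact Subtype.ext (mul_left_cancel h2)
  · exact Nat.card_le_card_of_injective _ SemidirectProduct.inl_injective

end Cfsg.Agent.Lib.H27InvJ
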