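import Cfsg.Agent.Lib.H27InvA

set_option autoImplicit false

namespace Cfsg.Agent.Lib.H27InvK

open Cfsg.Agent.Lib.H27InvDefs

theorem exists_not_comm {Γ : Type*} [Group Γ] [Finite Γ] {a z : Γ} (ha : a * a = 1) (hg : Gen a)
    (hza : z * a = a * z) (hz : z ∉ Subgroup.center Γ) :
    ∃ b ∈ Nb a, z * (a * b) ≠ (a * b) * z := by
  by_contra hcon
  push Not at hcon
  apply hz
  have hle : Subgroup.closure (Nb a) ≤ Subgroup.centralizer {z} := by
    rw [Subgroup.closure_le]
    intro b hb
    show b ∈ Subgroup.centralizer {z}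
    rw [Subgroup.mem_centralizer_singleton_iff]
    have h1 := hcon b hb
    -- z * (a*b) = a*b*z, z*a = a*z  ⇒ a * (z * b) = a * (b * z)
    have h2 : a * (z * b) = a * (b * z) := by
      calc a * (z * b) = (a * z) * b := by group
        _ = z * a * b := by rw [hza]
        _ = z * (a * b) := by group
        _ = a * b * z := h1
        _ = a * (b * z) := by group
    exact (mul_left_cancel h2).symm
  rw [H27InvA.closure_Nb ha hg] at hle
  rw [Subgroup.mem_center_iff]
  intro g
  have := hle (Subgroup.mem_top g)
  rw [Subgroup.mem_centralizer_singleton_iff] at this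
  exact this

end Cfsg.Agent.Lib.H27InvK
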