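import Cfsg.Agent.Lib.H27InvRed
import Cfsg.Agent.Lib.H27InvI2

set_option autoImplicit false

namespace Cfsg.Agent.Lib.H27InvMain

open Cfsg.Agent.Lib.H27InvDefs Nat

theorem step (n K : ℕ) (hK : Bd n K) : ∃ K', Bd (n + 1) K' := by
  obtain ⟨K₁, hK₁⟩ := H27InvRed.red n K hK
  obtain ⟨S, hS⟩ := H27InvG.schur K₁
  refine ⟨K₁ * (2 * S), ?_⟩
  intro Γ _ _ a ha hg hn
  have hq : Nat.card (Γ ⧸ Rad Γ) ≤ K₁ :=
    hK₁ (Γ ⧸ Rad Γ) (QuotientGroup.mk a) (by rw [← QuotientGroup.mk_mul, ha]; rfl)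
      (H27InvBS.gen_mk _ hg) H27InvI1.noZ_quot ((H27InvB.card_le _ ha).trans hn)
  have hr := H27InvI2.card_rad_le ha hg K₁ S hS hq
  rw [Subgroup.card_eq_card_quotient_mul_card_subgroup (Rad Γ)]
  exact Nat.mul_le_mul hq hr

theorem main (n : ℕ) : ∃ K, Bd n K := by
  induction n with
  | zero =>
    refine ⟨0, ?_⟩
    intro Γ _ _ a ha _ hn
    exfalso
    have : Nonempty (Nb a) := ⟨⟨a, H27InvMem.self_mem ha⟩⟩
    have := Nat.card_pos (α := Nb a)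
    omega
  | succ n ih =>
    obtain ⟨K, hK⟩ := ih
    exact step n K hK

end Cfsg.Agent.Lib.H27InvMain
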