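import Mathlib

set_option autoImplicit false

namespace Cfsg.Agent.Lib.H27InvPow

theorem odd_pow {Γ : Type*} [Group Γ] [Finite Γ] (t : Γ) (L : ℕ) (hL : Nat.card Γ ≤ L) :
    Odd (orderOf (t ^ (2 ^ L))) := by
  obtain ⟨k, m, hm, hkm⟩ := Nat.exists_eq_two_pow_mul_odd (orderOf_pos t).ne'
  have h1 : 2 ^ k ≤ orderOf t := by rw [hkm]; exact Nat.le_mul_of_pos_right _ hm.pos
  have h2 : orderOf t ≤ Nat.card Γ := orderOf_le_card
  have h3 : k < 2 ^ k := Nat.lt_two_pow_self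
  have hkL : k ≤ L := by omega
  have h4 : (t ^ (2 ^ L)) ^ m = 1 := by
    rw [← pow_mul]
    have e : 2 ^ L * m = (2 ^ k * m) * 2 ^ (L - k) := by
      have : 2 ^ L = 2 ^ k * 2 ^ (L - k) := by rw [← pow_add]; congr 1; omega
      rw [this]; ring
    rw [e, pow_mul, ← hkm, pow_orderOf_eq_one, one_pow]
  exact Odd.of_dvd_nat hm (orderOf_dvd_of_pow_eq_one h4)

end Cfsg.Agent.Lib.H27InvPow
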