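import Cfsg.Agent.Lib.H27InvB
import Cfsg.Agent.Lib.H27InvC
import Cfsg.Agent.Lib.H27InvD
import Cfsg.Agent.Lib.H27InvD2
import Cfsg.Agent.Lib.H27InvE
import Cfsg.Agent.Lib.H27InvF
import Cfsg.Agent.Lib.H27InvH1
import Cfsg.Agent.Lib.H27InvH2
import Cfsg.Agent.Lib.H27InvH3
import Cfsg.Agent.Lib.H27InvK

set_option autoImplicit false

namespace Cfsg.Agent.Lib.H27InvRed

open Cfsg.Agent.Lib.H27InvDefs Nat

/-- the reduced case (no central involution) of the induction step -/
theorem red (n K : ℕ) (hK : Bd n K) : ∃ K₁, ∀ (Γ : Type) [Group Γ] [Finite Γ] (a : Γ),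
    a * a = 1 → Gen a → NoZ Γ → Nat.card (Nb a) ≤ n + 1 → Nat.card Γ ≤ K₁ := by
  obtain ⟨S, hS⟩ := H27InvG.schur (2 * (n + 1))!
  obtain ⟨B, hB⟩ := H27InvF.bound (2 * ((n + 1)!) ^ 2)
  refine ⟨max (2 * S) (K * B), ?_⟩
  intro Γ _ _ a ha hg hz hn
  have h1 : Nat.card {z : Γ // orderOf z = 2 ∧ z * a = a * z} ≤ (n + 1)! :=
    (H27InvH1.card_invol_le ha hg hz).trans (Nat.factorial_le hn)
  rcases H27InvE.bf ha (n + 1) ((n + 1)!) hn h1 with hc | ⟨z, hz2, hza, hzc⟩
  · refine le_trans ?_ (le_max_left _ _)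
    have h2 : (Subgroup.center Γ).index ≤ (2 * (n + 1))! :=
      (H27InvH2.index_center_le hg).trans (Nat.factorial_le hc.le)
    exact (H27InvH3.card_le ha hg).trans (Nat.mul_le_mul_left 2 (hS Γ h2))
  · refine le_trans ?_ (le_max_right _ _)
    have hzz : z * z = 1 := by
      rw [← pow_two, ← hz2]; exact pow_orderOf_eq_one z
    have hEB := hB Γ z hzz hzc
    obtain ⟨E, hE⟩ : ∃ E : Subgroup Γ, E = Subgroup.normalClosure {z} := ⟨_, rfl⟩
    rw [← hE] at hEB
    have hEn : E.Normal := by rw [hE]; exact Subgroup.normalClosure_normal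
    have hzE : z ∈ E := by rw [hE]; exact Subgroup.subset_normalClosure rfl
    have hlt : Nat.card (Nb (QuotientGroup.mk a : Γ ⧸ E)) < Nat.card (Nb a) := by
      by_cases h : ∀ b ∈ Nb a, a * b ∈ E → b = a
      · have hD := H27InvD.comm_mem_pCore ha E hEn h
        have hE2 : IsPGroup 2 E := by
          rw [hE]
          refine H27InvD2.isPGroup_normalClosure hg hz2 ?_
          rw [← hE]; exact hD
        have hzc' : z ∉ Subgroup.center Γ := by
          intro hc
          have := hz z hc hzz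
          rw [this, orderOf_one] at hz2
          omega
        obtain ⟨b, hb, hne⟩ := H27InvK.exists_not_comm ha hg hza hzc'
        obtain ⟨b', hb', hne', hmem⟩ := H27InvC.exists_other ha E hEn hE2 hb hzE hne
        exact H27InvB.card_lt E ha hb hb' hne' hmem
      · push Not at h
        obtain ⟨b, hb, hbE, hne⟩ := h
        refine H27InvB.card_lt E ha (H27InvMem.self_mem ha) hb hne ?_
        have : a⁻¹ = a := inv_eq_of_mul_eq_one_left ha
        rw [this]; exact hbE
    have hq : Nat.card (Γ ⧸ E) ≤ K :=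
      hK (Γ ⧸ E) (QuotientGroup.mk a) (by rw [← QuotientGroup.mk_mul, ha]; rfl)
        (H27InvBS.gen_mk E hg) (by omega)
    rw [Subgroup.card_eq_card_quotient_mul_card_subgroup E]
    exact Nat.mul_le_mul hq hEB

end Cfsg.Agent.Lib.H27InvRed
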