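import Mathlib

/-! PROJECT 3496 (row S3496, 3u), piece `CardT` (30 min, PURE MATHLIB).  Three small lemmas on a group of prime order. -/

set_option autoImplicit false

namespace Cfsg.Agent.Lib.H30XpCardT

theorem card_eq {G : Type*} [Group G] (T : Subgroup G) (q : ℕ) (hq : q.Prime) (hc : IsCyclic T) (hT : T ≠ ⊥)
    (hexp : ∀ t ∈ T, t ^ q = 1) : Nat.card T = q := by
  obtain ⟨g, hg⟩ := IsCyclic.exists_generator (α := T)
  have h1 : orderOf g = Nat.card T := orderOf_eq_card_of_forall_mem_zpowers hg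
  have h2 : orderOf g ∣ q := by
    apply orderOf_dvd_of_pow_eq_one
    apply Subtype.ext
    simpa using hexp g g.2
  rcases (Nat.dvd_prime hq).1 h2 with h | h
  · exfalso
    apply hT
    rw [← Subgroup.card_eq_one, ← h1, h]
  · rw [← h1, h]

theorem dvd_sub_one {G : Type*} [Group G] (T : Subgroup G) (q n : ℕ) (hq : q.Prime) (hT : Nat.card T = q) (hn : 0 < n)
    (h : ∀ t ∈ T, t ^ n = t) : q ∣ n - 1 := by
  have hTb : T ≠ ⊥ := by
    intro hb
    rw [hb, Subgroup.card_bot] at hT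
    exact hq.one_lt.ne hT
  obtain ⟨t, ht, ht1⟩ := (Subgroup.ne_bot_iff_exists_ne_one).1 hTb |>.elim
    (fun t ht => (⟨t.1, t.2, fun h => ht (Subtype.ext h)⟩ : ∃ t ∈ T, t ≠ 1))
  have ho : orderOf t = q := by
    have h1 : orderOf t ∣ q := hT ▸ Subgroup.orderOf_dvd_natCard T ht
    rcases (Nat.dvd_prime hq).1 h1 with h2 | h2
    · exact absurd (orderOf_eq_one_iff.1 h2) ht1
    · exact h2
  rw [← ho]
  apply orderOf_dvd_of_pow_eq_one
  obtain ⟨m, rfl⟩ : ∃ m, n = m + 1 := ⟨n - 1, by omega⟩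
  have := h t ht
  rw [pow_succ] at this
  simpa using this

theorem pow_eq_self {G : Type*} [Group G] (T : Subgroup G) (q n : ℕ) (hT : Nat.card T = q) (hn : 0 < n)
    (h : q ∣ n - 1) : ∀ t ∈ T, t ^ n = t := by
  intro t ht
  have h1 : t ^ q = 1 := by
    rw [← hT]
    have := pow_card_eq_one' (x := (⟨t, ht⟩ : T))
    exact congrArg Subtype.val this
  obtain ⟨m, rfl⟩ : ∃ m, n = m + 1 := ⟨n - 1, by omega⟩
  obtain ⟨k, hk⟩ := h
  simp only [Nat.add_sub_cancel] at hk
  rw [pow_succ, hk, pow_mul, h1, one_pow, one_mul]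

end Cfsg.Agent.Lib.H30XpCardT
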