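import Mathlib
import Cfsg.Agent.S0547

/-! PROJECT 3496 (row S3496, 3u), piece `EA` (40 min).  A finite solvable group `≠ 1` has a minimal normal subgroup; it is elementary abelian. -/

set_option autoImplicit false

namespace Cfsg.Agent.Lib.H30XpEA

theorem exists_min_normal (G : Type*) [Group G] [Finite G] [Group.IsSolvable G] [Nontrivial G] :
    ∃ (M : Subgroup G) (r : ℕ), M.Normal ∧ M ≠ ⊥ ∧
      (∀ K : Subgroup G, K.Normal → K ≤ M → K = ⊥ ∨ K = M) ∧ r.Prime ∧
      (∀ a ∈ M, ∀ b ∈ M, a * b = b * a) ∧ (∀ m ∈ M, m ^ r = 1) := by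
  classical
  let P : ℕ → Prop := fun n => ∃ M : Subgroup G, M.Normal ∧ M ≠ ⊥ ∧ Nat.card M = n
  have hex : ∃ n, P n := ⟨_, ⊤, inferInstance, top_ne_bot, rfl⟩
  obtain ⟨M, hMn, hM, hMc⟩ := Nat.find_spec hex
  have hmin : ∀ K : Subgroup G, K.Normal → K ≤ M → K = ⊥ ∨ K = M := by
    intro K hKn hKM
    by_cases hK : K = ⊥
    · exact Or.inl hK
    · right
      have := Nat.find_min' hex (m := Nat.card K) ⟨K, hKn, hK, rfl⟩
      exact Subgroup.eq_of_le_of_card_ge hKM (by rw [hMc]; exact this)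
  obtain ⟨⟨r, hr, hMp⟩, hab⟩ := Cfsg.Agent.S0547.pgroup_abelian M hM hmin
  have : Fact r.Prime := ⟨hr⟩
  let K : Subgroup G :=
    { carrier := {m | m ∈ M ∧ m ^ r = 1}
      one_mem' := ⟨M.one_mem, one_pow r⟩
      mul_mem' := by
        rintro a b ⟨ha, ha'⟩ ⟨hb, hb'⟩
        refine ⟨M.mul_mem ha hb, ?_⟩
        have hc : Commute a b := hab a ha b hb
        rw [hc.mul_pow, ha', hb', one_mul]
      inv_mem' := by
        rintro a ⟨ha, ha'⟩
        exact ⟨M.inv_mem ha, by rw [inv_pow, ha', inv_one]⟩ }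
  have hKn : K.Normal := by
    refine ⟨fun n hn g => ?_⟩
    exact ⟨hMn.conj_mem n hn.1 g, by rw [conj_pow, hn.2]; group⟩
  have hKM : K ≤ M := fun x hx => hx.1
  have hK0 : K ≠ ⊥ := by
    have hnt : Nontrivial M := (Subgroup.nontrivial_iff_ne_bot M).2 hM
    have hdvd : r ∣ Nat.card M := by
      rcases hMp.card_eq_or_dvd with h | h
      · exfalso
        have := Finite.one_lt_card_iff_nontrivial.2 hnt
        omega
      · exact h
    obtain ⟨x, hx⟩ := exists_prime_orderOf_dvd_card' (G := M) r hdvd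
    intro hb
    have hxK : (x : G) ∈ K := by
      refine ⟨x.2, ?_⟩
      have := pow_orderOf_eq_one x
      rw [hx] at this
      exact_mod_cast congrArg Subtype.val this
    rw [hb, Subgroup.mem_bot] at hxK
    have : x = 1 := Subtype.ext hxK
    rw [this, orderOf_one] at hx
    exact hr.one_lt.ne hx
  have hKeq : K = M := by
    rcases hmin K hKn hKM with h | h
    · exact absurd h hK0
    · exact h
  refine ⟨M, r, hMn, hM, hmin, hr, hab, ?_⟩
  intro m hm
  have : m ∈ K := by rw [hKeq]; exact hm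
  exact this.2

end Cfsg.Agent.Lib.H30XpEA
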