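import Mathlib

/-! PROJECT 3496 (row S3496, 3u), piece `FA` (25 min, PURE MATHLIB).  A finite group embedded in (the image of) a field is cyclic. -/

set_option autoImplicit false

namespace Cfsg.Agent.Lib.H30XpFA

theorem cyclic_of_field {K R T : Type*} [Field K] [Ring R] [Group T] [Finite T] (ι : K →+* R)
    (hι : Function.Injective ι) (ρ : T →* R) (hρ : Function.Injective ρ) (h : ∀ t, ρ t ∈ Set.range ι) :
    IsCyclic T := by
  choose f hf using h
  let F : T →* K :=
    { toFun := f
      map_one' := by
        apply hι
        rw [hf, map_one, map_one]
      map_mul' := by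
        intro a b
        apply hι
        rw [hf, map_mul, map_mul, hf, hf] }
  have hinj : Function.Injective F := by
    intro a b hab
    apply hρ
    rw [← hf a, ← hf b]
    exact congrArg ι hab
  exact isCyclic_of_injective_ringHom F hinj

end Cfsg.Agent.Lib.H30XpFA
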