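import Mathlib

/-! PROJECT 3496 (row S3496, 3u), piece `FB` (60 min, PURE MATHLIB).  Frobenius: a finite field of order `p ^ d` generated over `ZMod p` by elements with `s ^ (p ^ i) = s` has `d ≤ i`. -/

set_option autoImplicit false

namespace Cfsg.Agent.Lib.H30XpFB

theorem frob {p : ℕ} [Fact p.Prime] {K R : Type*} [Field K] [Finite K] [Ring R] [Algebra (ZMod p) R] (ι : K →+* R)
    (hι : Function.Injective ι) (S : Set R) (hS : Set.range ι = (Algebra.adjoin (ZMod p) S : Set R)) (d : ℕ)
    (hK : Nat.card K = p ^ d) :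
    (∀ i, 0 < i → (∀ s ∈ S, s ^ (p ^ i) = s) → d ≤ i) ∧ (∀ s ∈ S, s ^ (p ^ d) = s) := by
  classical
  have hp : p.Prime := Fact.out
  have := Fintype.ofFinite K
  have hnt : Nontrivial R := ⟨ι 0, ι 1, fun h => zero_ne_one (hι h)⟩
  have hcR : CharP R p := charP_of_injective_algebraMap (algebraMap (ZMod p) R).injective p
  have hcK : CharP K p := RingHom.charP ι hι p
  have hmem : ∀ x, x ∈ Algebra.adjoin (ZMod p) S → ∃ a, ι a = x := by
    intro x hx
    have : x ∈ Set.range ι := by rw [hS]; exact hx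
    exact this
  constructor
  · intro i hi hs
    have h1 : ∀ x, x ∈ Algebra.adjoin (ZMod p) S → x ^ (p ^ i) = x := by
      intro x hx
      induction hx using Algebra.adjoin_induction with
      | mem x hx => exact hs x hx
      | algebraMap r => rw [← map_pow, ZMod.pow_card_pow]
      | add x y hx hy ihx ihy =>
        obtain ⟨a, rfl⟩ := hmem x hx
        obtain ⟨b, rfl⟩ := hmem y hy
        rw [← map_add, ← map_pow, add_pow_char_pow, map_add, map_pow, map_pow, ihx, ihy, map_add]
      | mul x y hx hy ihx ihy =>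
        obtain ⟨a, rfl⟩ := hmem x hx
        obtain ⟨b, rfl⟩ := hmem y hy
        rw [← map_mul, ← map_pow, mul_pow, map_mul, map_pow, map_pow, ihx, ihy, map_mul]
    have h2 : ∀ k : K, k ^ (p ^ i) = k := by
      intro k
      apply hι
      rw [map_pow]
      apply h1
      have : ι k ∈ Set.range ι := ⟨k, rfl⟩
      rw [hS] at this
      exact this
    obtain ⟨g, hg⟩ := IsCyclic.exists_generator (α := Kˣ)
    have ho : orderOf g = p ^ d - 1 := by
      rw [orderOf_eq_card_of_forall_mem_zpowers hg, Nat.card_units, hK]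
    have hpi : 1 ≤ p ^ i := Nat.one_le_pow _ _ hp.pos
    have h3 : g ^ (p ^ i - 1) = 1 := by
      have h4 : g ^ (p ^ i) = g := Units.ext (by simpa using h2 (g : K))
      obtain ⟨m, hm⟩ : ∃ m, p ^ i = m + 1 := ⟨p ^ i - 1, by omega⟩
      rw [hm] at h4 ⊢
      rw [pow_succ] at h4
      simpa using h4
    have h5 : p ^ d - 1 ∣ p ^ i - 1 := ho ▸ orderOf_dvd_of_pow_eq_one h3
    have h6 : 1 < p ^ i := Nat.one_lt_pow hi.ne' hp.one_lt
    have h7 : p ^ d - 1 ≤ p ^ i - 1 := Nat.le_of_dvd (by omega) h5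
    have h8 : p ^ d ≤ p ^ i := by
      have : 1 ≤ p ^ d := Nat.one_le_pow _ _ hp.pos
      omega
    exact (Nat.pow_le_pow_iff_right hp.one_lt).1 h8
  · intro s hs
    obtain ⟨k, rfl⟩ := hmem s (Algebra.subset_adjoin hs)
    rw [← map_pow, ← hK, Nat.card_eq_fintype_card, FiniteField.pow_card]

end Cfsg.Agent.Lib.H30XpFB
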