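import Mathlib

/-! PROJECT 3496 (row S3496, 3u), piece `FC` (90 min, PURE MATHLIB).  Galois: `|H : C_H(T)|` divides `d`.

Proof.  `A := Algebra.adjoin (ZMod p) (ρ '' T)`, `range ι = A`.
(1) for `h : H` and `x ∈ A`: `ρ h * x * ρ h⁻¹ ∈ A`.  `Algebra.adjoin_induction`: `mem`: `ρ h * ρ t * ρ h⁻¹ = ρ (h t h⁻¹)`, `h t h⁻¹ ∈ T` (normal), `Algebra.subset_adjoin`; `algebraMap r`: `Algebra.commutes`/`Algebra.left_comm`, `ρ h * ρ h⁻¹ = 1`;
    `add`: `mul_add, add_mul`; `mul`: `ρ h (x y) ρ h⁻¹ = (ρ h x ρ h⁻¹)(ρ h y ρ h⁻¹)`.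
(2) `choose` `c : H → K → K` with `ι (c h k) = ρ h * ι k * ρ h⁻¹`.  By injectivity of `ι`: `c h` is additive, multiplicative, `c 1 = id`, `c (h h') = c h ∘ c h'`.  So `c h` is a ring automorphism of `K` (inverse `c h⁻¹`),
    `Φ : H →* (K ≃+* K)` (`RingAut K`, multiplication = composition).
(3) `Algebra (ZMod p) K`: `CharP K p` as in piece FB (`R` nontrivial, `charP_of_injective_algebraMap`, `RingHom.charP ι hι p`), `letI := ZMod.algebra K p`.  Every ring automorphism is `ZMod p`-linear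
    (`AlgEquiv.ofRingEquiv`; `e (algebraMap r) = algebraMap r`: `r = ((r.val : ℕ) : ZMod p)` (`ZMod.natCast_zmod_val`), `map_natCast`), so `K ≃+* K` embeds in / is equivalent to `K ≃ₐ[ZMod p] K`, and
    `Nat.card (K ≃ₐ[ZMod p] K) = Module.finrank (ZMod p) K` (`IsGalois.card_aut_eq_finrank (ZMod p) K`; the instance `IsGalois (ZMod p) K` for finite `K` is `GaloisField`/`FiniteField.isGalois..` in `Mathlib.FieldTheory.Finite.GaloisField`),
    `Nat.card K = p ^ finrank` (`Module.card_eq_pow_finrank`/`Module.natCard_eq_pow_finrank`, `ZMod.card`), so `finrank = d` (`Nat.pow_right_injective`).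
    It is convenient to define `Φ` directly with values in `K ≃ₐ[ZMod p] K`.
(4) `Φ.ker = centralizer T`: `Φ h = 1 ⇔ ∀ k, ρ h * ι k = ι k * ρ h`.  (⊆) take `ι k = ρ t` (`ρ t ∈ A = range ι`): `ρ (h t) = ρ (t h)`, `ρ` injective.  (⊇) `{x | ρ h * x = x * ρ h}` contains `ρ '' T`, `algebraMap`s, closed under `+`, `*`: `adjoin_induction`
    (or `Subalgebra.centralizer`, `Algebra.adjoin_le`).   [only `Φ.ker ≤ centralizer` or `=`? we need `centralizer.index ∣ d`: `index = Φ.ker.index = Nat.card Φ.range ∣ Nat.card (Aut) = d`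
    (`Subgroup.index_ker`, `Subgroup.card_subgroup_dvd_card`); with only `Φ.ker ≤ centralizer T` use `Subgroup.index_dvd_of_le`: so (⊆) IS ENOUGH.] -/

set_option autoImplicit false

namespace Cfsg.Agent.Lib.H30XpFC

theorem index_dvd {p : ℕ} [Fact p.Prime] {K R H : Type*} [Field K] [Finite K] [Ring R] [Algebra (ZMod p) R] [Group H]
    [Finite H] (ι : K →+* R) (hι : Function.Injective ι) (d : ℕ) (hK : Nat.card K = p ^ d) (ρ : H →* R)
    (hρ : Function.Injective ρ) (T : Subgroup H) [T.Normal]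
    (hS : Set.range ι = (Algebra.adjoin (ZMod p) (ρ '' (T : Set H)) : Set R)) :
    (Subgroup.centralizer (T : Set H)).index ∣ d := by
  classical
  have hinv : ∀ h : H, ρ h * ρ h⁻¹ = 1 := fun h => by rw [← map_mul, mul_inv_cancel, map_one]
  have hinv' : ∀ h : H, ρ h⁻¹ * ρ h = 1 := fun h => by rw [← map_mul, inv_mul_cancel, map_one]
  have hconj : ∀ (h : H) (x : R), x ∈ Algebra.adjoin (ZMod p) (ρ '' (T : Set H)) →
      ρ h * x * ρ h⁻¹ ∈ Algebra.adjoin (ZMod p) (ρ '' (T : Set H)) := by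
    intro h x hx
    induction hx using Algebra.adjoin_induction with
    | mem x hx =>
      obtain ⟨t, ht, rfl⟩ := hx
      apply Algebra.subset_adjoin
      refine ⟨h * t * h⁻¹, ‹T.Normal›.conj_mem t ht h, ?_⟩
      rw [map_mul, map_mul]
    | algebraMap r =>
      rw [← Algebra.commutes, mul_assoc, hinv, mul_one]
      exact Subalgebra.algebraMap_mem _ r
    | add x y _ _ hx hy =>
      rw [mul_add, add_mul]
      exact add_mem hx hy
    | mul x y _ _ hx hy =>
      have : ρ h * (x * y) * ρ h⁻¹ = (ρ h * x * ρ h⁻¹) * (ρ h * y * ρ h⁻¹) := by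
        calc ρ h * (x * y) * ρ h⁻¹ = ρ h * x * 1 * y * ρ h⁻¹ := by simp only [mul_one, mul_assoc]
          _ = ρ h * x * (ρ h⁻¹ * ρ h) * y * ρ h⁻¹ := by rw [hinv']
          _ = _ := by simp only [mul_assoc]
      rw [this]
      exact mul_mem hx hy
  have hex : ∀ (h : H) (k : K), ∃ k' : K, ι k' = ρ h * ι k * ρ h⁻¹ := by
    intro h k
    have h1 : ι k ∈ Algebra.adjoin (ZMod p) (ρ '' (T : Set H)) := by
      have : ι k ∈ Set.range ι := ⟨k, rfl⟩
      rw [hS] at this
      exact this
    have h2 := hconj h _ h1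
    have h3 : ρ h * ι k * ρ h⁻¹ ∈ Set.range ι := by rw [hS]; exact h2
    exact h3
  choose c hc using hex
  have hc_mul : ∀ h h' k, c (h * h') k = c h (c h' k) := by
    intro h h' k
    apply hι
    rw [hc, hc, hc, map_mul, mul_inv_rev, map_mul]
    simp only [mul_assoc]
  have hc_one : ∀ k, c 1 k = k := by
    intro k
    apply hι
    rw [hc]
    simp
  haveI : Nontrivial R := ⟨⟨ι 0, ι 1, fun h => zero_ne_one (hι h)⟩⟩
  haveI : CharP R p := charP_of_injective_algebraMap (algebraMap (ZMod p) R).injective p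
  haveI : CharP K p := (RingHom.charP_iff ι hι p).2 inferInstance
  letI : Algebra (ZMod p) K := ZMod.algebra K p
  let e : H → (K ≃+* K) := fun h =>
    { toFun := c h
      invFun := c h⁻¹
      left_inv := fun k => by rw [← hc_mul, inv_mul_cancel, hc_one]
      right_inv := fun k => by rw [← hc_mul, mul_inv_cancel, hc_one]
      map_mul' := fun x y => by
        apply hι
        rw [map_mul, hc, hc, hc, map_mul]
        calc ρ h * (ι x * ι y) * ρ h⁻¹ = ρ h * ι x * 1 * ι y * ρ h⁻¹ := by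
              simp only [mul_one, mul_assoc]
          _ = ρ h * ι x * (ρ h⁻¹ * ρ h) * ι y * ρ h⁻¹ := by rw [hinv']
          _ = _ := by simp only [mul_assoc]
      map_add' := fun x y => by
        apply hι
        rw [map_add, hc, hc, hc, map_add, mul_add, add_mul] }
  have he : ∀ (h : H) (r : ZMod p), e h (algebraMap (ZMod p) K r) = algebraMap (ZMod p) K r := by
    intro h r
    have : ((e h : K ≃+* K) : K →+* K).comp (algebraMap (ZMod p) K) = algebraMap (ZMod p) K :=
      Subsingleton.elim _ _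
    exact RingHom.congr_fun this r
  let Φ : H →* (K ≃ₐ[ZMod p] K) := MonoidHom.mk' (fun h => AlgEquiv.ofRingEquiv (f := e h) (he h)) (by
    intro h h'
    ext k
    exact hc_mul h h' k)
  have hΦ : ∀ h k, Φ h k = c h k := fun h k => rfl
  have hker : Φ.ker ≤ Subgroup.centralizer (T : Set H) := by
    intro h hh
    rw [MonoidHom.mem_ker] at hh
    rw [Subgroup.mem_centralizer_iff]
    intro t ht
    have h1 : ρ t ∈ Set.range ι := by
      rw [hS]
      exact Algebra.subset_adjoin ⟨t, ht, rfl⟩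
    obtain ⟨k, hk⟩ := h1
    have h2 : c h k = k := by rw [← hΦ, hh]; rfl
    have h3 := hc h k
    rw [h2, hk] at h3
    apply hρ
    rw [map_mul, map_mul]
    calc ρ t * ρ h = ρ h * ρ t * ρ h⁻¹ * ρ h := by rw [← h3]
      _ = ρ h * ρ t := by rw [mul_assoc, hinv', mul_one]
  have hfin : Module.finrank (ZMod p) K = d := by
    have h1 := Module.natCard_eq_pow_finrank (K := ZMod p) (V := K)
    rw [Nat.card_zmod, hK] at h1
    exact (Nat.pow_right_injective (Fact.out : p.Prime).two_le h1).symm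
  have hcard : Nat.card (K ≃ₐ[ZMod p] K) = d := by
    rw [IsGalois.card_aut_eq_finrank, hfin]
  calc (Subgroup.centralizer (T : Set H)).index ∣ Φ.ker.index := Subgroup.index_dvd_of_le hker
    _ = Nat.card Φ.range := Subgroup.index_ker Φ
    _ ∣ Nat.card (K ≃ₐ[ZMod p] K) := Subgroup.card_subgroup_dvd_card _
    _ = d := hcard

end Cfsg.Agent.Lib.H30XpFC
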