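import Mathlib

/-! PROJECT 3496 (row S3496, 3u), piece `FK` (75 min, PURE MATHLIB).  Schur's lemma for a commuting irreducible set of operators on a finite module: the algebra they generate is a field of order `|W|`.

Proof.  `A := Algebra.adjoin (ZMod p) S`, a subalgebra of `Module.End (ZMod p) W`; `K := ↥A`.
* `A` is commutative: `letI : CommRing ↥A := Algebra.adjoinCommRingOfComm (ZMod p) hcomm` (its ring structure is the one of the subalgebra).
* `K` is finite: `Module.End (ZMod p) W` is finite (`Finite.of_injective (fun f => (f : W → W)) DFunLike.coe_injective`), subtype.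
* for `x ∈ A`, `x ≠ 0`: `LinearMap.ker x` is stable under every `s ∈ S` (`x (s w) = s (x w) = 0`, as `x * s = s * x` in the commutative `A`; `s ∈ A` by `Algebra.subset_adjoin`), and `≠ ⊤` (`LinearMap.ker_eq_top`), so `= ⊥`.
  Hence `x * y = 0 → x = 0 ∨ y = 0` in `K` (`x (y w) = 0 ⇒ y w = 0`): `NoZeroDivisors K`, `K` nontrivial (`W` nontrivial ⇒ `(1 : End) ≠ 0`), `IsDomain K`;
  `letI : Field K := Fintype.fieldOfDomain K` (with `Fintype.ofFinite`), or `Finite.isField_of_domain K |>.toField`.
* `ι := A.val` (as a ring hom: `A.val.toRingHom`, or `A.toSubring.subtype`); injective; `Set.range ι = A` (`Subtype.range_coe`).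
* fix `v ≠ 0`.  `ev : K → W, x ↦ x.1 v` is injective (`x v = y v ⇒ v ∈ ker (x - y) ⇒ x - y = 0`), and surjective: its range is a submodule (`LinearMap.range ((LinearMap.applyₗ v).comp A.val.toLinearMap)` or by hand), stable under `S`
  (`s (x v) = (s * x) v`), containing `v = 1 v ≠ 0`, so it is `⊤`.  `Nat.card_congr (Equiv.ofBijective ev ..)`. -/

set_option autoImplicit false

namespace Cfsg.Agent.Lib.H30XpFK

universe u

theorem exists_field {p : ℕ} [Fact p.Prime] {W : Type u} [AddCommGroup W] [Module (ZMod p) W] [Finite W] [Nontrivial W]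
    (S : Set (Module.End (ZMod p) W)) (hcomm : ∀ a ∈ S, ∀ b ∈ S, a * b = b * a)
    (hirr : ∀ L : Submodule (ZMod p) W, (∀ s ∈ S, ∀ w ∈ L, s w ∈ L) → L = ⊥ ∨ L = ⊤) :
    ∃ (K : Type u) (_ : Field K) (_ : Finite K) (ι : K →+* Module.End (ZMod p) W), Function.Injective ι ∧
      Set.range ι = (Algebra.adjoin (ZMod p) S : Set (Module.End (ZMod p) W)) ∧ Nat.card K = Nat.card W := by
  classical
  set A := Algebra.adjoin (ZMod p) S with hA
  letI : CommRing ↥A := Algebra.adjoinCommRingOfComm (ZMod p) hcomm
  haveI : Finite (Module.End (ZMod p) W) :=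
    Finite.of_injective (fun f => (f : W → W)) DFunLike.coe_injective
  haveI : Finite ↥A := inferInstance
  have hcA : ∀ x y : ↥A, (x : Module.End (ZMod p) W) * y = y * x := by
    intro x y
    have := mul_comm x y
    exact congrArg Subtype.val this
  have hker : ∀ x : ↥A, x ≠ 0 → LinearMap.ker (x : Module.End (ZMod p) W) = ⊥ := by
    intro x hx
    have hst : ∀ s ∈ S, ∀ w ∈ LinearMap.ker (x : Module.End (ZMod p) W),
        s w ∈ LinearMap.ker (x : Module.End (ZMod p) W) := by
      intro s hs w hw
      rw [LinearMap.mem_ker] at hw ⊢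
      have h1 := hcA x ⟨s, Algebra.subset_adjoin hs⟩
      have h2 := LinearMap.congr_fun h1 w
      simp only [Module.End.mul_apply] at h2
      rw [h2, hw, map_zero]
    rcases hirr (LinearMap.ker (x : Module.End (ZMod p) W)) hst with h | h
    · exact h
    · exfalso
      apply hx
      apply Subtype.ext
      exact LinearMap.ker_eq_top.1 h
  haveI : Nontrivial ↥A := by
    refine ⟨⟨0, 1, ?_⟩⟩
    intro h
    obtain ⟨w, hw⟩ := exists_ne (0 : W)
    apply hw
    have h1 : ((0 : ↥A) : Module.End (ZMod p) W) w = ((1 : ↥A) : Module.End (ZMod p) W) w := by rw [h]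
    simpa using h1.symm
  haveI : NoZeroDivisors ↥A := by
    refine ⟨?_⟩
    intro x y hxy
    by_contra hcon
    push Not at hcon
    obtain ⟨hx, hy⟩ := hcon
    apply hy
    apply Subtype.ext
    apply LinearMap.ext
    intro w
    have h1 : ((x * y : ↥A) : Module.End (ZMod p) W) w = 0 := by rw [hxy]; rfl
    have h2 : (x : Module.End (ZMod p) W) ((y : Module.End (ZMod p) W) w) = 0 := h1
    have h3 : (y : Module.End (ZMod p) W) w ∈ LinearMap.ker (x : Module.End (ZMod p) W) := h2
    rw [hker x hx] at h3
    simpa using h3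
  haveI : IsDomain ↥A := NoZeroDivisors.to_isDomain _
  letI : Field ↥A := (Finite.isField_of_domain ↥A).toField
  refine ⟨↥A, inferInstance, inferInstance, A.val.toRingHom, Subtype.val_injective, ?_, ?_⟩
  · ext x
    constructor
    · rintro ⟨y, rfl⟩
      exact y.2
    · intro hx
      exact ⟨⟨x, hx⟩, rfl⟩
  · obtain ⟨v, hv⟩ := exists_ne (0 : W)
    let ev : ↥A →ₗ[ZMod p] W := (LinearMap.applyₗ v).comp A.val.toLinearMap
    have hev : ∀ x : ↥A, ev x = (x : Module.End (ZMod p) W) v := fun x => rfl
    have hinj : Function.Injective ev := by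
      rw [← LinearMap.ker_eq_bot, LinearMap.ker_eq_bot']
      intro x hx
      by_contra hx0
      have h3 : v ∈ LinearMap.ker (x : Module.End (ZMod p) W) := by
        rw [LinearMap.mem_ker, ← hev, hx]
      rw [hker x hx0] at h3
      exact hv (by simpa using h3)
    have hsurj : Function.Surjective ev := by
      rw [← LinearMap.range_eq_top]
      have hst : ∀ s ∈ S, ∀ w ∈ LinearMap.range ev, s w ∈ LinearMap.range ev := by
        rintro s hs _ ⟨x, rfl⟩
        exact ⟨⟨s, Algebra.subset_adjoin hs⟩ * x, by rw [hev, hev]; rfl⟩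
      rcases hirr (LinearMap.range ev) hst with h | h
      · exfalso
        have : v ∈ LinearMap.range ev := ⟨1, by rw [hev]; rfl⟩
        rw [h] at this
        exact hv (by simpa using this)
      · exact h
    exact Nat.card_congr (Equiv.ofBijective ev ⟨hinj, hsurj⟩)

end Cfsg.Agent.Lib.H30XpFK
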