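import Mathlib
import Cfsg.Agent.Lib.H30XpFK
import Cfsg.Agent.Lib.H30XpFA
import Cfsg.Agent.Lib.H30XpFB
import Cfsg.Agent.Lib.H30XpFC

/-! PROJECT 3496 (row S3496, 3u), assembly `Field` (helper30). -/

set_option autoImplicit false

namespace Cfsg.Agent.Lib.H30XpField

theorem field_main {p : ℕ} [Fact p.Prime] {W : Type*} [AddCommGroup W] [Module (ZMod p) W] [Finite W] [Nontrivial W]
    (d : ℕ) (hW : Nat.card W = p ^ d) {H : Type*} [Group H] [Finite H] (ρ : H →* Module.End (ZMod p) W)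
    (hρ : Function.Injective ρ) (T : Subgroup H) [T.Normal] (hTab : ∀ a ∈ T, ∀ b ∈ T, a * b = b * a)
    (hirr : ∀ L : Submodule (ZMod p) W, (∀ t ∈ T, ∀ w ∈ L, ρ t w ∈ L) → L = ⊥ ∨ L = ⊤) :
    IsCyclic T ∧ (∀ i, 0 < i → (∀ t ∈ T, t ^ (p ^ i) = t) → d ≤ i) ∧ (∀ t ∈ T, t ^ (p ^ d) = t) ∧
      (Subgroup.centralizer (T : Set H)).index ∣ d := by
  obtain ⟨K, _, _, ι, hι, hS, hK⟩ := Cfsg.Agent.Lib.H30XpFK.exists_field (ρ '' (T : Set H))
    (by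
      rintro _ ⟨a, ha, rfl⟩ _ ⟨b, hb, rfl⟩
      rw [← map_mul, ← map_mul, hTab a ha b hb])
    (by
      intro L hL
      apply hirr L
      intro t ht w hw
      exact hL _ ⟨t, ht, rfl⟩ w hw)
  rw [hW] at hK
  obtain ⟨hB1, hB2⟩ := Cfsg.Agent.Lib.H30XpFB.frob ι hι _ hS d hK
  refine ⟨?_, ?_, ?_, Cfsg.Agent.Lib.H30XpFC.index_dvd ι hι d hK ρ hρ T hS⟩
  · apply Cfsg.Agent.Lib.H30XpFA.cyclic_of_field ι hι (ρ.comp T.subtype)
      (hρ.comp T.subtype_injective)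
    intro t
    rw [hS]
    exact Algebra.subset_adjoin ⟨t.1, t.2, rfl⟩
  · intro i hi h
    apply hB1 i hi
    rintro _ ⟨t, ht, rfl⟩
    rw [← map_pow, h t ht]
  · intro t ht
    apply hρ
    rw [map_pow]
    exact hB2 _ ⟨t, ht, rfl⟩

end Cfsg.Agent.Lib.H30XpField
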