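import Mathlib

/-! PROJECT 3496 (row S3496, 3u), piece `Gen` (50 min, PURE MATHLIB).  `H / C_H(T)` embeds in `Aut(C_q)`, which is cyclic. -/

set_option autoImplicit false

namespace Cfsg.Agent.Lib.H30XpGen

theorem exists_gen {G : Type*} [Group G] [Finite G] (H T : Subgroup G) (q : ℕ) (hq : q.Prime) (hT : Nat.card T = q)
    (hTle : T ≤ H) (hTn : H ≤ Subgroup.normalizer (T : Set G))
    (hC : H ⊓ Subgroup.centralizer (T : Set G) ≤ T) : ∃ h : G, H = T ⊔ Subgroup.zpowers h := by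
  have hnorm : (T.subgroupOf H).Normal := (Subgroup.normal_subgroupOf_iff_le_normalizer hTle).2 hTn
  have hcard : Nat.card (T.subgroupOf H) = q := by
    rw [Nat.card_congr (Subgroup.subgroupOfEquivOfLe hTle).toEquiv, hT]
  have hfact : Fact (Nat.card (T.subgroupOf H)).Prime := ⟨by rw [hcard]; exact hq⟩
  have hcyc : IsCyclic (T.subgroupOf H) := isCyclic_of_prime_card rfl
  have hcycA : IsCyclic (MulAut (T.subgroupOf H)) :=
    isCyclic_of_surjective (IsCyclic.mulAutMulEquiv (T.subgroupOf H)).symm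
      (IsCyclic.mulAutMulEquiv (T.subgroupOf H)).symm.surjective
  let φ : H →* MulAut (T.subgroupOf H) := MulAut.conjNormal
  have hcycR : IsCyclic φ.range := inferInstance
  obtain ⟨⟨_, h₀, rfl⟩, hgen⟩ := IsCyclic.exists_generator (α := φ.range)
  refine ⟨(h₀ : G), le_antisymm ?_ ?_⟩
  · intro x hx
    have h1 := hgen ⟨φ ⟨x, hx⟩, ⟨x, hx⟩, rfl⟩
    obtain ⟨k, hk⟩ := Subgroup.mem_zpowers_iff.1 h1
    have hk' : (φ h₀) ^ k = φ ⟨x, hx⟩ := by
      have := congrArg Subtype.val hk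
      simpa using this
    set y : H := ⟨x, hx⟩ * h₀ ^ (-k) with hy
    have hφy : φ y = 1 := by
      rw [hy, map_mul, map_zpow, ← hk', ← zpow_add, add_neg_cancel, zpow_zero]
    have hyC : (y : G) ∈ Subgroup.centralizer (T : Set G) := by
      rw [Subgroup.mem_centralizer_iff]
      intro t ht
      have h2 : φ y ⟨⟨t, hTle ht⟩, ht⟩ = ⟨⟨t, hTle ht⟩, ht⟩ := by rw [hφy]; rfl
      have h3 := congrArg (fun z : T.subgroupOf H => ((z : H) : G)) h2
      simp only [φ, MulAut.conjNormal_apply, Subgroup.coe_mul, Subgroup.coe_inv] at h3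
      calc t * (y : G) = ((y : G) * t * (y : G)⁻¹) * (y : G) := by rw [h3]
        _ = _ := by group
    have hyT : (y : G) ∈ T := hC (Subgroup.mem_inf.2 ⟨y.2, hyC⟩)
    have hx' : x = (y : G) * (h₀ : G) ^ k := by
      rw [hy]
      simp
    rw [hx']
    exact Subgroup.mul_mem _ (Subgroup.mem_sup_left hyT)
      (Subgroup.mem_sup_right (Subgroup.zpow_mem _ (Subgroup.mem_zpowers _) k))
  · apply sup_le hTle
    rw [Subgroup.zpowers_le]
    exact h₀.2

end Cfsg.Agent.Lib.H30XpGen
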