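import Mathlib
import Cfsg.Agent.S0547
import Cfsg.Agent.S0548
import Cfsg.Agent.Lib.H30XpEA

/-! PROJECT 3496 (row S3496, 3u), piece `MinN` (40 min).  The regular normal subgroup. -/

set_option autoImplicit false

namespace Cfsg.Agent.Lib.H30XpMinN

theorem exists_N {G : Type*} [Group G] [Finite G] {Ω : Type*} [Fintype Ω] [MulAction G Ω] [FaithfulSMul G Ω]
    [Group.IsSolvable G] (p d : ℕ) (hp : p.Prime) (hcard : Fintype.card Ω = p ^ d)
    (hprim : MulAction.IsPreprimitive G Ω) (α : Ω) (hH : MulAction.stabilizer G α ≠ ⊥) :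
    ∃ N : Subgroup G, N.Normal ∧ N ≠ ⊥ ∧ IsMulCommutative N ∧ (∀ n ∈ N, n ^ p = 1) ∧ Nat.card N = p ^ d ∧
      MulAction.IsPretransitive N Ω ∧ (∀ ω : Ω, MulAction.stabilizer N ω = ⊥) ∧
      MulAction.stabilizer G α ⊓ Subgroup.centralizer (N : Set G) = ⊥ := by
  have hnt : Nontrivial G := by
    obtain ⟨x, hx⟩ := (Subgroup.ne_bot_iff_exists_ne_one).1 hH
    exact ⟨x.1, 1, fun h => hx (Subtype.ext h)⟩
  have : Nonempty Ω := ⟨α⟩
  obtain ⟨N, r, hNn, hN, hmin, hr, hab, hexp⟩ := Cfsg.Agent.Lib.H30XpEA.exists_min_normal G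
  obtain ⟨htr, hreg, p', d', -, -, hΩ, hNc⟩ := Cfsg.Agent.S0547.result hprim N hN hmin
  have hNcard : Nat.card N = p ^ d := by
    rw [hNc, ← hΩ, Nat.card_eq_fintype_card, hcard]
  have hrp : r = p := by
    obtain ⟨n, hn⟩ := (Subgroup.ne_bot_iff_exists_ne_one).1 hN
    have h1 : orderOf n ∣ r := by
      apply orderOf_dvd_of_pow_eq_one
      apply Subtype.ext
      simpa using hexp n n.2
    have h2 : orderOf n = r := by
      rcases (Nat.dvd_prime hr).1 h1 with h | h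
      · exact absurd (orderOf_eq_one_iff.1 h) hn
      · exact h
    have h3 : r ∣ p ^ d := by
      rw [← h2, ← hNcard]
      exact orderOf_dvd_natCard n
    exact (Nat.prime_dvd_prime_iff_eq hr hp).1 (hr.dvd_of_dvd_pow h3)
  refine ⟨N, hNn, hN, ⟨⟨fun a b => Subtype.ext (hab a a.2 b b.2)⟩⟩, ?_, hNcard, htr, hreg,
    (Cfsg.Agent.S0548.result hprim N hN hmin α).2.1⟩
  rw [← hrp]
  exact hexp

end Cfsg.Agent.Lib.H30XpMinN
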