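import Mathlib
import Cfsg.Agent.Lib.H30XpEA

/-! PROJECT 3496 (row S3496, 3u), piece `MinT` (40 min).  A minimal normal subgroup of `H`, seen in `G`. -/

set_option autoImplicit false

namespace Cfsg.Agent.Lib.H30XpMinT

theorem exists_T {G : Type*} [Group G] [Finite G] [Group.IsSolvable G] (H : Subgroup G) (hH : H ≠ ⊥) :
    ∃ (T : Subgroup G) (q : ℕ), q.Prime ∧ T ≠ ⊥ ∧ T ≤ H ∧ H ≤ Subgroup.normalizer (T : Set G) ∧
      (∀ a ∈ T, ∀ b ∈ T, a * b = b * a) ∧ (∀ t ∈ T, t ^ q = 1) := by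
  have hnt : Nontrivial H := (Subgroup.nontrivial_iff_ne_bot H).2 hH
  obtain ⟨M, q, hMn, hM, -, hq, hab, hexp⟩ := Cfsg.Agent.Lib.H30XpEA.exists_min_normal H
  refine ⟨M.map H.subtype, q, hq, ?_, Subgroup.map_subtype_le M, ?_, ?_, ?_⟩
  · intro h
    exact hM ((Subgroup.map_eq_bot_iff_of_injective M H.subtype_injective).1 h)
  · apply (Subgroup.normal_subgroupOf_iff_le_normalizer (Subgroup.map_subtype_le M)).1
    have : (M.map H.subtype).subgroupOf H = M :=
      Subgroup.comap_map_eq_self_of_injective H.subtype_injective M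
    rw [this]
    exact hMn
  · rintro _ ⟨a, ha, rfl⟩ _ ⟨b, hb, rfl⟩
    exact congrArg Subtype.val (hab a ha b hb)
  · rintro _ ⟨a, ha, rfl⟩
    exact congrArg Subtype.val (hexp a ha)

end Cfsg.Agent.Lib.H30XpMinT
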