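import Mathlib

/-! PROJECT 3496 (row S3496, 3u), piece `Mod` (75 min, PURE MATHLIB).  The elementary abelian normal subgroup `N` as a module for `H` (conjugation).

Construction.  `letI : CommGroup ↥N := { (inferInstance : Group ↥N) with mul_comm := hNc.is_comm.comm }`;  `W := Additive ↥N`;
`letI : Module (ZMod p) W := AddCommGroup.zmodModule (n := p) (fun x => ..)` (`p • x = 0` is `x.toMul ^ p = 1`: `Subtype.ext (hNp _ x.toMul.2)`).
`Finite W`, `Nontrivial W` (`N ≠ ⊥`: `(Subgroup.nontrivial_iff_ne_bot N).2 hN`), `Nat.card W = Nat.card N` (`Nat.card_congr Additive.toMul`).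
`ρ h : W →ₗ[ZMod p] W := AddMonoidHom.toZModLinearMap p (MonoidHom.toAdditive (MulAut.conjNormal (h : G)).toMonoidHom)`, i.e. `ρ h (ofMul n) = ofMul ⟨h n h⁻¹, _⟩`
(`MulAut.conjNormal_apply`); `map_one'`, `map_mul'` by `LinearMap.ext` + `Subtype.ext` (+ `simp [mul_assoc]`).  [You may define the additive map by hand with `AddMonoidHom.mk'`.]
Injective: `ρ h = ρ h'` ⇒ `h n h⁻¹ = h' n h'⁻¹` for all `n ∈ N` ⇒ `h'⁻¹ h ∈ H ⊓ centralizer N = ⊥` (`Subgroup.mem_centralizer_iff`) ⇒ `h = h'`.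
Irreducible: for a submodule `L` put `L' : Subgroup G := {g | ∃ hg : g ∈ N, Additive.ofMul (⟨g, hg⟩ : ↥N) ∈ L}` (or `(AddSubgroup.toSubgroup' L.toAddSubgroup).map N.subtype`).  `L' ≤ N`.  `T ≤ normalizer L'`: for `t ∈ T` (so `t ∈ H` by `hTle`)
`x ∈ L' → t x t⁻¹ ∈ L'` by the stability under `ρ ⟨t, _⟩`, and the converse by the stability under `ρ ⟨t⁻¹, _⟩` (`Subgroup.mem_normalizer_iff`).  `hI L'`: `L' = ⊥ ⇒ L = ⊥`, `L' = N ⇒ L = ⊤`. -/

set_option autoImplicit false

namespace Cfsg.Agent.Lib.H30XpMod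

universe u

/-- a representation from a family of additive maps -/
def mkRep {p : ℕ} {W H : Type*} [Group H] [AddCommGroup W] [Module (ZMod p) W] (c : H → (W →+ W))
    (h1 : ∀ x, c 1 x = x) (h2 : ∀ a b x, c (a * b) x = c a (c b x)) : H →* Module.End (ZMod p) W where
  toFun := fun h => (c h).toZModLinearMap p
  map_one' := by
    apply LinearMap.ext
    intro x
    rw [Module.End.one_apply]
    exact h1 x
  map_mul' := by
    intro h h'
    apply LinearMap.ext
    intro x
    rw [Module.End.mul_apply]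
    exact h2 _ _ _

theorem aux {p : ℕ} {W H : Type*} [Group H] [AddCommGroup W] [Module (ZMod p) W] (c : H → (W →+ W))
    (h1 : ∀ x, c 1 x = x) (h2 : ∀ a b x, c (a * b) x = c a (c b x))
    (hinj : ∀ h h', (∀ x, c h x = c h' x) → h = h') (T : Set H)
    (hirr : ∀ L : AddSubgroup W, (∀ t ∈ T, ∀ w ∈ L, c t w ∈ L) → L = ⊥ ∨ L = ⊤) :
    ∃ ρ : H →* Module.End (ZMod p) W, Function.Injective ρ ∧
      ∀ L : Submodule (ZMod p) W, (∀ t ∈ T, ∀ w ∈ L, ρ t w ∈ L) → L = ⊥ ∨ L = ⊤ := by
  refine ⟨mkRep c h1 h2, ?_, ?_⟩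
  · intro h h' e
    apply hinj
    intro x
    exact congrArg (fun f : Module.End (ZMod p) W => f x) e
  · intro L hL
    rcases hirr L.toAddSubgroup (fun t ht w hw => hL t ht w hw) with h | h
    · left
      rw [Submodule.eq_bot_iff]
      intro x hx
      have h3 : x ∈ L.toAddSubgroup := hx
      rw [h] at h3
      exact h3
    · right
      rw [Submodule.eq_top_iff']
      intro x
      have h3 : x ∈ L.toAddSubgroup := by rw [h]; trivial
      exact h3

theorem exists_module {G : Type u} [Group G] [Finite G] (p d : ℕ) [Fact p.Prime] (N : Subgroup G) [N.Normal] (hN : N ≠ ⊥)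
    (hNc : IsMulCommutative N) (hNp : ∀ n ∈ N, n ^ p = 1) (hNcard : Nat.card N = p ^ d) (H T : Subgroup G)
    (hcent : H ⊓ Subgroup.centralizer (N : Set G) = ⊥) (hTle : T ≤ H)
    (hI : ∀ L : Subgroup G, L ≤ N → T ≤ Subgroup.normalizer (L : Set G) → L = ⊥ ∨ L = N) :
    ∃ (W : Type u) (_ : AddCommGroup W) (_ : Module (ZMod p) W) (_ : Finite W) (_ : Nontrivial W)
      (ρ : ↥H →* Module.End (ZMod p) W), Nat.card W = p ^ d ∧ Function.Injective ρ ∧
      ∀ L : Submodule (ZMod p) W, (∀ t : ↥H, t.1 ∈ T → ∀ w ∈ L, ρ t w ∈ L) → L = ⊥ ∨ L = ⊤ := by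
  let instC : CommGroup ↥N := { (inferInstance : Group ↥N) with mul_comm := hNc.is_comm.comm }
  let instA : AddCommGroup (Additive ↥N) := @Additive.addCommGroup _ instC
  let instM : @Module (ZMod p) (Additive ↥N) _ instA.toAddCommMonoid :=
    @AddCommGroup.zmodModule p (Additive ↥N) instA (fun x => by
      apply Additive.toMul.injective
      apply Subtype.ext
      exact hNp _ x.toMul.2)
  have hnt : Nontrivial ↥N := (Subgroup.nontrivial_iff_ne_bot N).2 hN
  have hconj : ∀ (h : G) (n : ↥N), h * (n : G) * h⁻¹ ∈ N := fun h n => ‹N.Normal›.conj_mem n n.2 h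
  let cf : ↥H → Additive ↥N → Additive ↥N := fun h x =>
    Additive.ofMul (⟨(h : G) * (x.toMul : G) * (h : G)⁻¹, hconj h x.toMul⟩ : ↥N)
  let c : ↥H → (Additive ↥N →+ Additive ↥N) := fun h => AddMonoidHom.mk' (cf h) (by
    intro x y
    apply Additive.toMul.injective
    apply Subtype.ext
    show (h : G) * ((x.toMul : G) * (y.toMul : G)) * (h : G)⁻¹ =
      ((h : G) * (x.toMul : G) * (h : G)⁻¹) * ((h : G) * (y.toMul : G) * (h : G)⁻¹)
    group)
  have hc : ∀ (h : ↥H) (x : Additive ↥N), c h x =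
      Additive.ofMul (⟨(h : G) * (x.toMul : G) * (h : G)⁻¹, hconj h x.toMul⟩ : ↥N) := fun _ _ => rfl
  obtain ⟨ρ, hρ1, hρ2⟩ := @aux p (Additive ↥N) ↥H _ instA instM c
    (by
      intro x
      apply Additive.toMul.injective
      apply Subtype.ext
      show ((1 : ↥H) : G) * (x.toMul : G) * ((1 : ↥H) : G)⁻¹ = (x.toMul : G)
      simp)
    (by
      intro h h' x
      apply Additive.toMul.injective
      apply Subtype.ext
      show ((h * h' : ↥H) : G) * (x.toMul : G) * ((h * h' : ↥H) : G)⁻¹ =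
        (h : G) * ((h' : G) * (x.toMul : G) * (h' : G)⁻¹) * (h : G)⁻¹
      rw [Subgroup.coe_mul]
      group)
    (by
      intro h h' e
      have h1 : ∀ n ∈ N, (h : G) * n * (h : G)⁻¹ = (h' : G) * n * (h' : G)⁻¹ := by
        intro n hn
        exact congrArg (fun y : Additive ↥N => (y.toMul : G)) (e (Additive.ofMul (⟨n, hn⟩ : ↥N)))
      have h3 : (h' : G)⁻¹ * (h : G) ∈ H ⊓ Subgroup.centralizer (N : Set G) := by
        refine Subgroup.mem_inf.2 ⟨H.mul_mem (H.inv_mem h'.2) h.2, ?_⟩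
        rw [Subgroup.mem_centralizer_iff]
        intro n hn
        have h4 := h1 n hn
        calc n * ((h' : G)⁻¹ * (h : G)) = (h' : G)⁻¹ * ((h' : G) * n * (h' : G)⁻¹) * (h : G) := by group
          _ = (h' : G)⁻¹ * ((h : G) * n * (h : G)⁻¹) * (h : G) := by rw [h4]
          _ = (h' : G)⁻¹ * (h : G) * n := by group
      rw [hcent, Subgroup.mem_bot] at h3
      apply Subtype.ext
      exact (inv_mul_eq_one.1 h3).symm)
    {t | t.1 ∈ T}
    (by
      intro L hL
      let L' : Subgroup G :=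
        { carrier := {g | ∃ hg : g ∈ N, Additive.ofMul (⟨g, hg⟩ : ↥N) ∈ L}
          mul_mem' := by
            rintro a b ⟨ha, ha'⟩ ⟨hb, hb'⟩
            exact ⟨N.mul_mem ha hb, L.add_mem ha' hb'⟩
          one_mem' := ⟨N.one_mem, L.zero_mem⟩
          inv_mem' := by
            rintro a ⟨ha, ha'⟩
            exact ⟨N.inv_mem ha, L.neg_mem ha'⟩ }
      have hL'N : L' ≤ N := fun g hg => hg.1
      have hstab : ∀ t ∈ T, ∀ x ∈ L', t * x * t⁻¹ ∈ L' := by
        rintro t ht x ⟨hx, hx'⟩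
        exact ⟨hconj t ⟨x, hx⟩, hL ⟨t, hTle ht⟩ ht _ hx'⟩
      have hnorm : T ≤ Subgroup.normalizer (L' : Set G) := by
        intro t ht
        rw [Subgroup.mem_normalizer_iff]
        intro x
        constructor
        · exact hstab t ht x
        · intro hx
          have h1 := hstab t⁻¹ (T.inv_mem ht) _ hx
          have h2 : t⁻¹ * (t * x * t⁻¹) * t⁻¹⁻¹ = x := by group
          rwa [h2] at h1
      rcases hI L' hL'N hnorm with h | h
      · left
        rw [AddSubgroup.eq_bot_iff_forall]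
        intro x hx
        have h1 : (x.toMul : G) ∈ L' := ⟨x.toMul.2, hx⟩
        rw [h, Subgroup.mem_bot] at h1
        apply Additive.toMul.injective
        apply Subtype.ext
        exact h1
      · right
        rw [AddSubgroup.eq_top_iff']
        intro x
        have h1 : (x.toMul : G) ∈ L' := by rw [h]; exact x.toMul.2
        obtain ⟨_, h2⟩ := h1
        exact h2)
  refine ⟨Additive ↥N, instA, instM, inferInstance, inferInstance, ρ, ?_, hρ1, hρ2⟩
  rw [← hNcard]
  exact Nat.card_congr Additive.toMul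

end Cfsg.Agent.Lib.H30XpMod
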