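import Mathlib

/-! PROJECT 3496 (row S3496, 3u), piece `Semi1` (45 min, PURE MATHLIB).  The centraliser of `T` in the point stabiliser acts semiregularly off `α`. -/

set_option autoImplicit false

namespace Cfsg.Agent.Lib.H30XpSemi1

open MulAction

theorem semireg {G Ω : Type*} [Group G] [MulAction G Ω] (N : Subgroup G) [N.Normal]
    (hNtr : IsPretransitive N Ω) (hNreg : ∀ ω : Ω, stabilizer N ω = ⊥) (α : Ω)
    (hcent : stabilizer G α ⊓ Subgroup.centralizer (N : Set G) = ⊥) (T : Subgroup G)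
    (hI : ∀ L : Subgroup G, L ≤ N → T ≤ Subgroup.normalizer (L : Set G) → L = ⊥ ∨ L = N)
    (c : G) (hc : c ∈ stabilizer G α) (hcT : c ∈ Subgroup.centralizer (T : Set G)) (hc1 : c ≠ 1)
    (ω : Ω) (hω : c • ω = ω) : ω = α := by
  set L := N ⊓ Subgroup.centralizer ({c} : Set G) with hL
  have hmemL : ∀ x, x ∈ L ↔ x ∈ N ∧ x * c = c * x := by
    intro x
    rw [hL, Subgroup.mem_inf, Subgroup.mem_centralizer_singleton_iff]
  have hTc : ∀ t ∈ T, t * c = c * t := fun t ht => (Subgroup.mem_centralizer_iff.1 hcT t ht)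
  have hconj : ∀ t ∈ T, ∀ x ∈ L, t * x * t⁻¹ ∈ L := by
    intro t ht x hx
    rw [hmemL] at hx ⊢
    refine ⟨‹N.Normal›.conj_mem x hx.1 t, ?_⟩
    have h1 := hTc t ht
    have h2 : t⁻¹ * c = c * t⁻¹ := by
      calc t⁻¹ * c = t⁻¹ * (c * t) * t⁻¹ := by group
        _ = t⁻¹ * (t * c) * t⁻¹ := by rw [h1]
        _ = _ := by group
    calc t * x * t⁻¹ * c = t * x * (t⁻¹ * c) := by group
      _ = t * x * (c * t⁻¹) := by rw [h2]
      _ = t * (x * c) * t⁻¹ := by group
      _ = t * (c * x) * t⁻¹ := by rw [hx.2]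
      _ = (t * c) * x * t⁻¹ := by group
      _ = (c * t) * x * t⁻¹ := by rw [h1]
      _ = _ := by group
  have hTn : T ≤ Subgroup.normalizer (L : Set G) := by
    intro t ht
    rw [Subgroup.mem_normalizer_iff]
    intro x
    constructor
    · exact hconj t ht x
    · intro hx
      have := hconj t⁻¹ (T.inv_mem ht) _ hx
      have e : t⁻¹ * (t * x * t⁻¹) * t⁻¹⁻¹ = x := by group
      rwa [e] at this
  have hLbot : L = ⊥ := by
    rcases hI L inf_le_left hTn with h | h
    · exact h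
    · exfalso
      apply hc1
      have : c ∈ stabilizer G α ⊓ Subgroup.centralizer (N : Set G) := by
        refine Subgroup.mem_inf.2 ⟨hc, ?_⟩
        rw [Subgroup.mem_centralizer_iff]
        intro n hn
        have : n ∈ L := by rw [h]; exact hn
        exact ((hmemL n).1 this).2
      rw [hcent] at this
      exact Subgroup.mem_bot.1 this
  obtain ⟨⟨n, hn⟩, hnω⟩ := MulAction.exists_smul_eq N α ω
  have hnω' : n • α = ω := hnω
  have hcα : c • α = α := hc
  have hcα' : c⁻¹ • α = α := by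
    rw [inv_smul_eq_iff, hcα]
  have hmem : n⁻¹ * (c * n * c⁻¹) ∈ N := N.mul_mem (N.inv_mem hn) (‹N.Normal›.conj_mem n hn c)
  have hfix : (n⁻¹ * (c * n * c⁻¹)) • α = α := by
    rw [mul_smul, mul_smul, mul_smul, hcα', hnω', hω, ← hnω', inv_smul_smul]
  have h1 : (⟨n⁻¹ * (c * n * c⁻¹), hmem⟩ : N) ∈ stabilizer N α := by
    rw [mem_stabilizer_iff]
    exact hfix
  rw [hNreg α, Subgroup.mem_bot] at h1
  have h2 : n⁻¹ * (c * n * c⁻¹) = 1 := congrArg Subtype.val h1
  have h3 : n * c = c * n := by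
    calc n * c = n * (n⁻¹ * (c * n * c⁻¹)) * c := by rw [h2, mul_one]
      _ = _ := by group
  have h4 : n ∈ L := (hmemL n).2 ⟨hn, h3⟩
  rw [hLbot, Subgroup.mem_bot] at h4
  rw [← hnω', h4, one_smul]

end Cfsg.Agent.Lib.H30XpSemi1
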