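import Mathlib
import Cfsg.Agent.Lib.H30XpSemi1

/-! PROJECT 3496 (row S3496, 3u), piece `Semi2` (50 min, PURE MATHLIB + `Semi1`).  Orbit lengths and `C_H(T) = T`. -/

set_option autoImplicit false

namespace Cfsg.Agent.Lib.H30XpSemi2

open MulAction

theorem semi {G Ω : Type*} [Group G] [Finite G] [Finite Ω] [MulAction G Ω] (N : Subgroup G) [N.Normal] (hN : N ≠ ⊥)
    (hNtr : IsPretransitive N Ω) (hNreg : ∀ ω : Ω, stabilizer N ω = ⊥) (α : Ω)
    (hcent : stabilizer G α ⊓ Subgroup.centralizer (N : Set G) = ⊥) (T : Subgroup G)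
    (hTle : T ≤ stabilizer G α) (hTab : ∀ a ∈ T, ∀ b ∈ T, a * b = b * a)
    (hO : ∀ ω : Ω, orbit T ω = orbit (stabilizer G α) ω)
    (hI : ∀ L : Subgroup G, L ≤ N → T ≤ Subgroup.normalizer (L : Set G) → L = ⊥ ∨ L = N) :
    (∀ ω : Ω, ω ≠ α → Nat.card (orbit (stabilizer G α) ω) = Nat.card T) ∧
      stabilizer G α ⊓ Subgroup.centralizer (T : Set G) = T := by
  set C := stabilizer G α ⊓ Subgroup.centralizer (T : Set G) with hC
  have hTC : T ≤ C := by
    intro t ht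
    refine Subgroup.mem_inf.2 ⟨hTle ht, ?_⟩
    rw [Subgroup.mem_centralizer_iff]
    intro a ha
    exact hTab a ha t ht
  -- (1)
  have h1 : ∀ D : Subgroup G, D ≤ C → ∀ ω : Ω, ω ≠ α → Nat.card (orbit D ω) = Nat.card D := by
    intro D hD ω hω
    have hst : stabilizer D ω = ⊥ := by
      rw [eq_bot_iff]
      intro d hd
      rw [Subgroup.mem_bot]
      by_contra hd1
      apply hω
      have hdC := hD d.2
      exact Cfsg.Agent.Lib.H30XpSemi1.semireg N hNtr hNreg α hcent T hI (d : G)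
        (Subgroup.mem_inf.1 hdC).1 (Subgroup.mem_inf.1 hdC).2 (fun h => hd1 (Subtype.ext h)) ω hd
    have h2 := MulAction.index_stabilizer D ω
    rw [hst, Subgroup.index_bot] at h2
    rw [Nat.card_coe_set_eq, ← h2]
  have h2 : ∀ ω : Ω, ω ≠ α → Nat.card (orbit (stabilizer G α) ω) = Nat.card T := by
    intro ω hω
    rw [← hO ω]
    exact h1 T hTC ω hω
  refine ⟨h2, ?_⟩
  -- (3)
  obtain ⟨n, hn, hn1⟩ : ∃ n ∈ N, n ≠ 1 := by
    obtain ⟨n, hn⟩ := (Subgroup.ne_bot_iff_exists_ne_one).1 hN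
    exact ⟨n.1, n.2, fun h => hn (Subtype.ext h)⟩
  have hω : n • α ≠ α := by
    intro h
    apply hn1
    have : (⟨n, hn⟩ : N) ∈ stabilizer N α := by
      rw [mem_stabilizer_iff]; exact h
    rw [hNreg α, Subgroup.mem_bot] at this
    exact congrArg Subtype.val this
  have hsub : orbit C (n • α) ⊆ orbit (stabilizer G α) (n • α) := by
    rintro _ ⟨c, rfl⟩
    exact ⟨⟨c.1, (Subgroup.mem_inf.1 c.2).1⟩, rfl⟩
  have hle : Nat.card C ≤ Nat.card T := by
    rw [← h1 C le_rfl _ hω, ← h2 _ hω]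
    exact Nat.card_mono (Set.toFinite _) hsub
  exact (Subgroup.eq_of_le_of_card_ge hTC hle).symm

end Cfsg.Agent.Lib.H30XpSemi2
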