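import Mathlib
import Cfsg.Agent.Lib.H30XpMod
import Cfsg.Agent.Lib.H30XpField

/-! PROJECT 3496 (row S3496, 3u), piece `Trans` (45 min).  The FIELD lemma in subgroup form.

Proof.  `obtain ⟨W, _, _, _, _, ρ, hW, hρ, hirr⟩ := H30XpMod.exists_module p d N hN hNc hNp hNcard H T hcent hTle hI`.   `T' := T.subgroupOf H`, normal in `↥H`:
`(Subgroup.normal_subgroupOf_iff_le_normalizer hTle).2 hTn`.   `H30XpField.field_main d hW ρ hρ T' ..` (`t ∈ T' ↔ t.1 ∈ T`: `Subgroup.mem_subgroupOf`; commutativity by `Subtype.ext`).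
Transfer: `IsCyclic T` from `IsCyclic T'` via `Subgroup.subgroupOfEquivOfLe hTle : ↥T' ≃* ↥T` (`isCyclic_of_surjective`/`MulEquiv.isCyclic`);  powers: apply the statement for `⟨t, hTle ht⟩ : ↥H` and `congrArg Subtype.val`;
index: `(H ⊓ centralizer T).relIndex H = ((H ⊓ centralizer T).subgroupOf H).index` (`rfl`) and `(H ⊓ centralizer T).subgroupOf H = centralizer (T' : Set ↥H)` (`ext x`; `Subgroup.mem_subgroupOf`, `Subgroup.mem_inf`, `Subgroup.mem_centralizer_iff`;
`→`: `Subtype.ext`; `←`: use `⟨t, hTle ht⟩` and `congrArg Subtype.val`). -/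

set_option autoImplicit false

namespace Cfsg.Agent.Lib.H30XpTrans

theorem group_field {G : Type*} [Group G] [Finite G] (p d : ℕ) [Fact p.Prime] (N : Subgroup G) [N.Normal] (hN : N ≠ ⊥)
    (hNc : IsMulCommutative N) (hNp : ∀ n ∈ N, n ^ p = 1) (hNcard : Nat.card N = p ^ d) (H T : Subgroup G)
    (hcent : H ⊓ Subgroup.centralizer (N : Set G) = ⊥) (hTle : T ≤ H)
    (hTn : H ≤ Subgroup.normalizer (T : Set G)) (hTab : ∀ a ∈ T, ∀ b ∈ T, a * b = b * a)
    (hI : ∀ L : Subgroup G, L ≤ N → T ≤ Subgroup.normalizer (L : Set G) → L = ⊥ ∨ L = N) :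
    IsCyclic T ∧ (∀ i, 0 < i → (∀ t ∈ T, t ^ (p ^ i) = t) → d ≤ i) ∧ (∀ t ∈ T, t ^ (p ^ d) = t) ∧
      (H ⊓ Subgroup.centralizer (T : Set G)).relIndex H ∣ d := by
  obtain ⟨W, _, _, _, _, ρ, hW, hρ, hirr⟩ :=
    Cfsg.Agent.Lib.H30XpMod.exists_module p d N hN hNc hNp hNcard H T hcent hTle hI
  have hn : (T.subgroupOf H).Normal := (Subgroup.normal_subgroupOf_iff_le_normalizer hTle).2 hTn
  obtain ⟨h1, h2, h3, h4⟩ := Cfsg.Agent.Lib.H30XpField.field_main d hW ρ hρ (T.subgroupOf H)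
    (by
      intro a ha b hb
      apply Subtype.ext
      exact hTab a.1 (Subgroup.mem_subgroupOf.1 ha) b.1 (Subgroup.mem_subgroupOf.1 hb))
    (by
      intro L hL
      apply hirr L
      intro t ht w hw
      exact hL t (Subgroup.mem_subgroupOf.2 ht) w hw)
  refine ⟨?_, ?_, ?_, ?_⟩
  · exact isCyclic_of_surjective (Subgroup.subgroupOfEquivOfLe hTle)
      (Subgroup.subgroupOfEquivOfLe hTle).surjective
  · intro i hi h
    apply h2 i hi
    intro t ht
    apply Subtype.ext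
    exact h t.1 (Subgroup.mem_subgroupOf.1 ht)
  · intro t ht
    exact congrArg Subtype.val (h3 ⟨t, hTle ht⟩ (Subgroup.mem_subgroupOf.2 ht))
  · have e : (H ⊓ Subgroup.centralizer (T : Set G)).subgroupOf H =
        Subgroup.centralizer ((T.subgroupOf H : Subgroup ↥H) : Set ↥H) := by
      ext x
      rw [Subgroup.mem_subgroupOf, Subgroup.mem_inf, Subgroup.mem_centralizer_iff,
        Subgroup.mem_centralizer_iff]
      constructor
      · rintro ⟨_, h⟩ t ht
        apply Subtype.ext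
        exact h t.1 (Subgroup.mem_subgroupOf.1 ht)
      · intro h
        refine ⟨x.2, fun t ht => ?_⟩
        exact congrArg Subtype.val (h ⟨t, hTle ht⟩ (Subgroup.mem_subgroupOf.2 ht))
    show ((H ⊓ Subgroup.centralizer (T : Set G)).subgroupOf H).index ∣ d
    rw [e]
    exact h4

end Cfsg.Agent.Lib.H30XpTrans
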