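import Mathlib

set_option autoImplicit false

/-! Vocabulary of project 3493 (row S3493: extremely primitive groups are affine or almost simple). -/

namespace Cfsg.Agent.Lib.H31EPDefs

variable {G : Type*} [Group G]

/-- `H ∩ x H x⁻¹` (the stabiliser in `H = G_α` of the point `x • α`). -/
def stab (H : Subgroup G) (x : G) : Subgroup G := H ⊓ H.map (MulAut.conj x).toMonoidHom

theorem mem_stab {H : Subgroup G} {x h : G} : h ∈ stab H x ↔ h ∈ H ∧ x⁻¹ * h * x ∈ H := by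
  unfold stab
  rw [Subgroup.mem_inf, Subgroup.mem_map]
  constructor
  · rintro ⟨h1, y, hy, rfl⟩
    refine ⟨h1, ?_⟩
    simp only [MulEquiv.coe_toMonoidHom, MulAut.conj_apply]
    have : x⁻¹ * (x * y * x⁻¹) * x = y := by group
    rw [this]
    exact hy
  · rintro ⟨h1, h2⟩
    refine ⟨h1, x⁻¹ * h * x, h2, ?_⟩
    simp only [MulEquiv.coe_toMonoidHom, MulAut.conj_apply]
    group

/-- For `h ∈ H`: `h` fixes `x • α` iff `x⁻¹ (h x h⁻¹) ∈ H`. -/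
theorem mem_stab' {H : Subgroup G} {x h : G} (hh : h ∈ H) :
    h ∈ stab H x ↔ x⁻¹ * (h * x * h⁻¹) ∈ H := by
  rw [mem_stab]
  constructor
  · rintro ⟨-, h2⟩
    have : x⁻¹ * (h * x * h⁻¹) = (x⁻¹ * h * x) * h⁻¹ := by group
    rw [this]
    exact H.mul_mem h2 (H.inv_mem hh)
  · intro h2
    refine ⟨hh, ?_⟩
    have : x⁻¹ * h * x = (x⁻¹ * (h * x * h⁻¹)) * h := by group
    rw [this]
    exact H.mul_mem h2 hh

theorem stab_le (H : Subgroup G) (x : G) : stab H x ≤ H := inf_le_left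

/-- `H` is "extremely primitive" in `G`: every `H ∩ x H x⁻¹` is `H` or a maximal subgroup of `H`. -/
def EP (H : Subgroup G) : Prop :=
  ∀ x : G, ∀ X : Subgroup G, stab H x ≤ X → X ≤ H → X = stab H x ∨ X = H

/-- the twisted centraliser of `d` in `H`: elements of `L` centralise `d`, elements of `H \ L`
invert `d`. -/
def Tw (H L : Subgroup G) (d h : G) : Prop :=
  h ∈ H ∧ ((h ∈ L ∧ h * d * h⁻¹ = d) ∨ (h ∉ L ∧ h * d * h⁻¹ = d⁻¹))

/-- `S` is invariant under conjugation by `N`. -/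
def Inv (N S : Subgroup G) : Prop := ∀ n ∈ N, ∀ s ∈ S, n * s * n⁻¹ ∈ S

/-- `N = T × M`, `T` simple non-abelian, `M = C_N(T)`, every `G`-conjugate of `T` is `T` or lies
in `M`, some conjugate lies in `M`, and `N` is generated by the conjugates of `T`. -/
structure TM (N T M : Subgroup G) : Prop where
  T_le : T ≤ N
  M_le : M ≤ N
  invT : Inv N T
  invM : Inv N M
  comm : ∀ t ∈ T, ∀ m ∈ M, t * m = m * t
  prod : ∀ n ∈ N, ∃ t ∈ T, ∃ m ∈ M, n = t * m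
  disj : ∀ x, x ∈ T → x ∈ M → x = 1
  simp : ∀ S : Subgroup G, S ≤ T → Inv T S → S = ⊥ ∨ S = T
  nab : ∃ a ∈ T, ∃ b ∈ T, a * b ≠ b * a
  alt : ∀ g : G, (∀ t ∈ T, g * t * g⁻¹ ∈ T) ∨ (∀ t ∈ T, g * t * g⁻¹ ∈ M)
  moved : ∃ g : G, ∀ t ∈ T, g * t * g⁻¹ ∈ M
  gen : ∀ X : Subgroup G, (∀ g : G, ∀ t ∈ T, g * t * g⁻¹ ∈ X) → N ≤ X

/-- The standing hypotheses: `H` a core-free maximal subgroup of `G` which is extremely primitive,
`N` a normal subgroup of `G` with trivial centre, not inside `H` (so `G = H N`). -/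
structure Setting (H N : Subgroup G) : Prop where
  max : IsCoatom H
  ep : EP H
  nN : N.Normal
  fac : ∀ g : G, ∃ h ∈ H, ∃ n ∈ N, g = h * n
  notle : ¬ N ≤ H
  cen : ∀ z ∈ N, (∀ n ∈ N, n * z = z * n) → z = 1
  core : ∀ K : Subgroup G, K.Normal → K ≤ H → K = ⊥

/-- The hypotheses of the twisted centraliser lemma: `D ≤ L ≤ H`, `D` simple non-abelian and
normalised by `H`, `L` of index at most 2 in `H`, and every twisted centraliser `{h | Tw H L d h}`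
(`1 ≠ d ∈ D`) is a maximal subgroup of `H`. -/
structure TwSet (H D L : Subgroup G) : Prop where
  DL : D ≤ L
  LH : L ≤ H
  norm : ∀ h ∈ H, ∀ d ∈ D, h * d * h⁻¹ ∈ D
  L2 : ∀ a ∈ H, ∀ b ∈ H, a ∉ L → b ∉ L → a * b ∈ L
  simp : ∀ S : Subgroup G, S ≤ D → Inv D S → S = ⊥ ∨ S = D
  nab : ∃ a ∈ D, ∃ b ∈ D, a * b ≠ b * a
  max : ∀ d ∈ D, d ≠ 1 → ∀ X : Subgroup G, (∀ h, Tw H L d h → h ∈ X) → X ≤ H →
    (∀ x ∈ X, Tw H L d x) ∨ X = H

/-- The hypotheses of the diagonal lemma: `A`, `B` commute elementwise, `A ∩ B = A ∩ H = B ∩ H = 1`,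
every `a ∈ A` has a partner `b ∈ B` with `a b ∈ H`, every `h ∈ H` normalises both `A` and `B` or
swaps them, `A` is simple non-abelian. -/
structure Diag (H A B : Subgroup G) : Prop where
  comm : ∀ a ∈ A, ∀ b ∈ B, a * b = b * a
  AB : ∀ x, x ∈ A → x ∈ B → x = 1
  AH : ∀ x, x ∈ A → x ∈ H → x = 1
  BH : ∀ x, x ∈ B → x ∈ H → x = 1
  surj : ∀ a ∈ A, ∃ b ∈ B, a * b ∈ H
  act : ∀ h ∈ H, ((∀ a ∈ A, h * a * h⁻¹ ∈ A) ∧ (∀ b ∈ B, h * b * h⁻¹ ∈ B)) ∨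
    ((∀ a ∈ A, h * a * h⁻¹ ∈ B) ∧ (∀ b ∈ B, h * b * h⁻¹ ∈ A))
  simp : ∀ S : Subgroup G, S ≤ A → Inv A S → S = ⊥ ∨ S = A
  nab : ∃ a ∈ A, ∃ a' ∈ A, a * a' ≠ a' * a

/-- the diagonal subgroup `H ∩ AB` -/
def dD (H A B : Subgroup G) : Subgroup G := H ⊓ (A ⊔ B)

/-- `N_H(A)` -/
def dL (H A : Subgroup G) : Subgroup G := H ⊓ Subgroup.normalizer (A : Set G)

end Cfsg.Agent.Lib.H31EPDefs
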