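import Mathlib
import Cfsg.Agent.Lib.H31EPDefs

set_option autoImplicit false

/-! PIECE TMLem (45m): small consequences of `TM N T M` and `Setting H N`.  All are a few lines. -/

namespace Cfsg.Agent.Lib.H31EPTMLem

open Cfsg.Agent.Lib.H31EPDefs

variable {G : Type*} [Group G] {H N T M : Subgroup G}

/-- `T ≠ ⊥` (from `nab`). -/
theorem T_ne_bot (h : TM N T M) : T ≠ ⊥ := by
  rintro rfl
  obtain ⟨a, ha, b, hb, hab⟩ := h.nab
  rw [Subgroup.mem_bot] at ha hb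
  subst ha hb
  exact hab rfl

/-- `Z(T) = 1`: the set of `z ∈ T` commuting with `T` is a `T`-invariant subgroup; by `simp` it is `⊥` or `T`;
`T` is excluded by `nab`. -/
theorem center_free (h : TM N T M) (z : G) (hz : z ∈ T) (hc : ∀ t ∈ T, t * z = z * t) : z = 1 := by
  have hmem : ∀ x, x ∈ T ⊓ Subgroup.centralizer (T : Set G) ↔ x ∈ T ∧ ∀ t ∈ T, t * x = x * t := by
    intro x
    rw [Subgroup.mem_inf, Subgroup.mem_centralizer_iff]
    rfl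
  have hinv : Inv T (T ⊓ Subgroup.centralizer (T : Set G)) := by
    intro n hn s hs
    rw [hmem] at hs ⊢
    have e : n * s * n⁻¹ = s := by rw [hs.2 n hn]; group
    rw [e]
    exact hs
  rcases h.simp _ inf_le_left hinv with h1 | h1
  · have : z ∈ T ⊓ Subgroup.centralizer (T : Set G) := (hmem z).mpr ⟨hz, hc⟩
    rw [h1, Subgroup.mem_bot] at this
    exact this
  · exfalso
    obtain ⟨a, ha, b, hb, hab⟩ := h.nab
    have : b ∈ T ⊓ Subgroup.centralizer (T : Set G) := by rw [h1]; exact hb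
    exact hab (((hmem b).mp this).2 a ha)

/-- not both alternatives of `alt` (else `g t g⁻¹ ∈ T ∩ M = 1` for all `t`, so `T = ⊥`). -/
theorem not_both (h : TM N T M) (g : G) (h1 : ∀ t ∈ T, g * t * g⁻¹ ∈ T)
    (h2 : ∀ t ∈ T, g * t * g⁻¹ ∈ M) : False := by
  apply T_ne_bot h
  rw [Subgroup.eq_bot_iff_forall]
  intro t ht
  have := h.disj _ (h1 t ht) (h2 t ht)
  have e : t = g⁻¹ * (g * t * g⁻¹) * g := by group
  rw [e, this]
  group

/-- If `g` maps `T` into `T` then so does `g⁻¹` (otherwise `g⁻¹` maps `T` into `M` by `alt`; then for `t ∈ T`,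
`s = g⁻¹ t g ∈ M`...: easier: finiteness, `T.map (conj g) ≤ T` with equal cardinalities). -/
theorem inv_maps [Finite G] (h : TM N T M) (g : G) (h1 : ∀ t ∈ T, g * t * g⁻¹ ∈ T) :
    ∀ t ∈ T, g⁻¹ * t * g⁻¹⁻¹ ∈ T := by
  have hle : T.map (MulAut.conj g).toMonoidHom ≤ T := by
    rintro _ ⟨t, ht, rfl⟩
    exact h1 t ht
  have hcard : Nat.card (T.map (MulAut.conj g).toMonoidHom) = Nat.card T :=
    Subgroup.card_map_of_injective (MulAut.conj g).injective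
  have heq : T.map (MulAut.conj g).toMonoidHom = T :=
    Subgroup.eq_of_le_of_card_ge hle hcard.ge
  intro t ht
  rw [← heq] at ht
  obtain ⟨s, hs, rfl⟩ := ht
  have e : g⁻¹ * (MulAut.conj g).toMonoidHom s * g⁻¹⁻¹ = s := by
    simp only [MulEquiv.coe_toMonoidHom, MulAut.conj_apply]
    group
  rw [e]
  exact hs

/-- same as a membership in the normaliser -/
theorem mem_normalizer [Finite G] (h : TM N T M) (g : G) (h1 : ∀ t ∈ T, g * t * g⁻¹ ∈ T) :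
    g ∈ Subgroup.normalizer (T : Set G) := by
  rw [Subgroup.mem_normalizer_iff]
  intro t
  constructor
  · exact h1 t
  · intro ht
    have := inv_maps h g h1 _ ht
    have e : g⁻¹ * (g * t * g⁻¹) * g⁻¹⁻¹ = t := by group
    rwa [e] at this

/-- If `g` maps `T` into `M` then so does `g⁻¹` (by `alt` and `inv_maps`, `not_both`). -/
theorem inv_moves [Finite G] (h : TM N T M) (g : G) (h1 : ∀ t ∈ T, g * t * g⁻¹ ∈ M) :
    ∀ t ∈ T, g⁻¹ * t * g⁻¹⁻¹ ∈ M := by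
  rcases h.alt g⁻¹ with h2 | h2
  · exfalso
    have h3 := inv_maps h g⁻¹ h2
    apply not_both h g _ h1
    intro t ht
    have := h3 t ht
    simpa using this
  · exact h2

/-- Every conjugate `g T g⁻¹` is `N`-invariant (`N` normal, `invT`):
`n (g t g⁻¹) n⁻¹ = g ((g⁻¹ n g) t (g⁻¹ n g)⁻¹) g⁻¹`. -/
theorem inv_cj (hN : N.Normal) (h : TM N T M) (g n t : G) (hn : n ∈ N) (ht : t ∈ T) :
    ∃ t' ∈ T, n * (g * t * g⁻¹) * n⁻¹ = g * t' * g⁻¹ := by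
  have hn' : g⁻¹ * n * g ∈ N := by
    have := hN.conj_mem n hn g⁻¹
    simpa using this
  refine ⟨(g⁻¹ * n * g) * t * (g⁻¹ * n * g)⁻¹, h.invT _ hn' t ht, ?_⟩
  group

/-- If `g₂⁻¹ g₁` maps `T` into `M`, the conjugates `g₁ T g₁⁻¹` and `g₂ T g₂⁻¹` commute elementwise
(conjugate `comm` by `g₂`). -/
theorem comm_cj (h : TM N T M) (g₁ g₂ : G)
    (h1 : ∀ t ∈ T, (g₂⁻¹ * g₁) * t * (g₂⁻¹ * g₁)⁻¹ ∈ M) (s t : G) (hs : s ∈ T) (ht : t ∈ T) :
    (g₁ * s * g₁⁻¹) * (g₂ * t * g₂⁻¹) = (g₂ * t * g₂⁻¹) * (g₁ * s * g₁⁻¹) := by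
  have h2 := h.comm t ht _ (h1 s hs)
  have e1 : (g₁ * s * g₁⁻¹) * (g₂ * t * g₂⁻¹) =
      g₂ * (((g₂⁻¹ * g₁) * s * (g₂⁻¹ * g₁)⁻¹) * t) * g₂⁻¹ := by group
  have e2 : (g₂ * t * g₂⁻¹) * (g₁ * s * g₁⁻¹) =
      g₂ * (t * ((g₂⁻¹ * g₁) * s * (g₂⁻¹ * g₁)⁻¹)) * g₂⁻¹ := by group
  rw [e1, e2, h2]

/-- Some element of `H` maps `T` into `M`: `moved` gives `g = h n` (`Setting.fac`), and
`h t h⁻¹ = g (n⁻¹ t n) g⁻¹` with `n⁻¹ t n ∈ T`. -/
theorem exists_moved (hs : Setting H N) (h : TM N T M) : ∃ x ∈ H, ∀ t ∈ T, x * t * x⁻¹ ∈ M := by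
  obtain ⟨g, hg⟩ := h.moved
  obtain ⟨x, hx, n, hn, rfl⟩ := hs.fac g
  refine ⟨x, hx, fun t ht => ?_⟩
  have h1 : n⁻¹ * t * n⁻¹⁻¹ ∈ T := h.invT _ (N.inv_mem hn) t ht
  have h2 := hg _ h1
  have e : x * n * (n⁻¹ * t * n⁻¹⁻¹) * (x * n)⁻¹ = x * t * x⁻¹ := by group
  rwa [e] at h2

/-- `N ≤ X` as soon as `X` contains all `H`-conjugates of `T` (`gen`, `fac`, `invT`). -/
theorem gen_H (hs : Setting H N) (h : TM N T M) (X : Subgroup G)
    (hX : ∀ x ∈ H, ∀ t ∈ T, x * t * x⁻¹ ∈ X) : N ≤ X := by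
  apply h.gen
  intro g t ht
  obtain ⟨x, hx, n, hn, rfl⟩ := hs.fac g
  have h1 : n * t * n⁻¹ ∈ T := h.invT _ hn t ht
  have h2 := hX x hx _ h1
  have e : x * (n * t * n⁻¹) * x⁻¹ = x * n * t * (x * n)⁻¹ := by group
  rwa [e] at h2

end Cfsg.Agent.Lib.H31EPTMLem
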