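import Mathlib
import Cfsg.Agent.Lib.H31EPDefs
import Cfsg.Agent.Lib.H31EPTMLem

set_option autoImplicit false

namespace Cfsg.Agent.Lib.H31EPC1

open Cfsg.Agent.Lib.H31EPDefs

variable {G : Type*} [Group G] {H N T M : Subgroup G}

/-- PIECE C1 (75m).  If the projection `R = {t ∈ T | ∃ m ∈ M, t m ∈ H}` of `N ∩ H` to `T` is not all of `T`, then
`N ∩ H = 1` and `N_H(T)` centralises `T`.
Let `L = H ⊓ normalizer T`; `L ≠ H` by `TMLem.exists_moved` + `not_both`.  `R` is a subgroup of `T`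
(`(t m)(t' m') = (t t')(m m')`, `(t m)⁻¹ = t⁻¹ m⁻¹` by `comm`).
(1) For `t ∈ T`, `t ∉ R`: `stab H t ≤ L`.  Indeed let `h ∈ stab H t`, so `h ∈ H`, `t⁻¹ (h t h⁻¹) ∈ H` (`mem_stab'`); if `h` does not
map `T` into `T`, then `m = h t h⁻¹ ∈ M` by `alt` and `t⁻¹ m ∈ H`, so `t⁻¹ ∈ R`, `t ∈ R`.  By `EP` (`x = t`, `X = L`): `L = stab H t`
(as `L ≠ H`).  Hence `t⁻¹ (l t l⁻¹) ∈ H ∩ T` for all `l ∈ L`.
(2) `R` is `T`-invariant: let `r ∈ R`, `r m ∈ H`, `l = r m ∈ N ∩ H ≤ L`; `l t l⁻¹ = r t r⁻¹`.  For `t ∈ T \ R`, (1) gives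
`t⁻¹ r t r⁻¹ ∈ H ∩ T ⊆ R` (take `m = 1`), so `t⁻¹ r t ∈ R`; apply this to `t⁻¹ ∉ R` to get `t r t⁻¹ ∈ R`; for `t ∈ R` clear.
By `TM.simp`, `R = ⊥` (as `t₀ ∉ R`).
(3) `N ∩ H ≤ M` (write `x = t m`, then `t ∈ R = ⊥`).  For `x ∈ N ∩ H` and `y ∈ H`: `y⁻¹ x y ∈ N ∩ H ≤ M` commutes with `T`, so `x` commutes with
`y T y⁻¹`.  So `centralizer {x}` contains all `H`-conjugates of `T`, hence `N` (`TMLem.gen_H`), so `x = 1` by `Setting.cen`.
(4) now every `1 ≠ t ∈ T` is outside `R`, and (1) gives `t⁻¹ (l t l⁻¹) ∈ H ∩ N = 1`. -/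
theorem small [Finite G] (hs : Setting H N) (h : TM N T M) (t₀ : G) (ht₀ : t₀ ∈ T)
    (hR : ∀ m ∈ M, t₀ * m ∉ H) :
    (∀ x, x ∈ N → x ∈ H → x = 1) ∧
    (∀ l ∈ H, (∀ t ∈ T, l * t * l⁻¹ ∈ T) → ∀ t ∈ T, l * t * l⁻¹ = t) := by
  classical
  -- the subgroup `L = N_H(T)`
  obtain ⟨L, hLdef⟩ : ∃ L : Subgroup G, L = H ⊓ Subgroup.normalizer (T : Set G) := ⟨_, rfl⟩
  have hLH : L ≤ H := by rw [hLdef]; exact inf_le_left
  have hmemL : ∀ l ∈ H, (∀ t ∈ T, l * t * l⁻¹ ∈ T) → l ∈ L := by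
    intro l hl hlT
    rw [hLdef]
    exact ⟨hl, H31EPTMLem.mem_normalizer h l hlT⟩
  have hLT : ∀ l ∈ L, ∀ t ∈ T, l * t * l⁻¹ ∈ T := by
    intro l hl t ht
    rw [hLdef] at hl
    exact (Subgroup.mem_normalizer_iff.mp hl.2 t).mp ht
  have hLne : L ≠ H := by
    intro hLH'
    obtain ⟨x, hxH, hx⟩ := H31EPTMLem.exists_moved hs h
    exact H31EPTMLem.not_both h x (hLT x (by rw [hLH']; exact hxH)) hx
  -- the projection `R`
  let R : Subgroup G :=
    { carrier := {t | t ∈ T ∧ ∃ m ∈ M, t * m ∈ H}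
      mul_mem' := by
        rintro t t' ⟨ht, m, hm, htm⟩ ⟨ht', m', hm', htm'⟩
        refine ⟨T.mul_mem ht ht', m * m', M.mul_mem hm hm', ?_⟩
        have e : t * t' * (m * m') = (t * m) * (t' * m') := by
          calc t * t' * (m * m') = t * (t' * m) * m' := by group
            _ = t * (m * t') * m' := by rw [h.comm t' ht' m hm]
            _ = (t * m) * (t' * m') := by group
        rw [e]
        exact H.mul_mem htm htm'
      one_mem' := ⟨T.one_mem, 1, M.one_mem, by simpa using H.one_mem⟩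
      inv_mem' := by
        rintro t ⟨ht, m, hm, htm⟩
        refine ⟨T.inv_mem ht, m⁻¹, M.inv_mem hm, ?_⟩
        have e : t⁻¹ * m⁻¹ = (t * m)⁻¹ := by
          rw [h.comm t ht m hm, mul_inv_rev]
        rw [e]
        exact H.inv_mem htm }
  have hmemR : ∀ t, t ∈ R ↔ t ∈ T ∧ ∃ m ∈ M, t * m ∈ H := fun t => Iff.rfl
  have hRT : R ≤ T := fun t ht => ht.1
  -- (1)
  have key1 : ∀ t ∈ T, t ∉ R → ∀ l ∈ L, t⁻¹ * (l * t * l⁻¹) ∈ H := by
    intro t ht htR l hl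
    have hle : stab H t ≤ L := by
      intro h' hh'
      have hh'H : h' ∈ H := stab_le H t hh'
      have h1 := (mem_stab' hh'H).1 hh'
      rcases h.alt h' with hT | hM
      · exact hmemL h' hh'H hT
      · exfalso
        apply htR
        have : t⁻¹ ∈ R := ⟨T.inv_mem ht, _, hM t ht, h1⟩
        simpa using R.inv_mem this
    have hL : L = stab H t := (hs.ep t L hle hLH).resolve_right hLne
    have hl' : l ∈ stab H t := by rw [← hL]; exact hl
    exact (mem_stab' (hLH hl)).1 hl'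
  -- (2)
  have claim2 : ∀ t ∈ T, t ∉ R → ∀ r ∈ R, t⁻¹ * r * t ∈ R := by
    rintro t ht htR r ⟨hr, m, hm, hrm⟩
    have hlN : r * m ∈ N := N.mul_mem (h.T_le hr) (h.M_le hm)
    have hlL : r * m ∈ L := hmemL _ hrm (h.invT _ hlN)
    have h1 := key1 t ht htR _ hlL
    have e : (r * m) * t * (r * m)⁻¹ = r * t * r⁻¹ := by
      calc (r * m) * t * (r * m)⁻¹ = r * (m * t) * m⁻¹ * r⁻¹ := by group
        _ = r * (t * m) * m⁻¹ * r⁻¹ := by rw [h.comm t ht m hm]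
        _ = r * t * r⁻¹ := by group
    rw [e] at h1
    have h2 : t⁻¹ * (r * t * r⁻¹) ∈ R :=
      ⟨T.mul_mem (T.inv_mem ht) (T.mul_mem (T.mul_mem hr ht) (T.inv_mem hr)), 1, M.one_mem,
        by rw [mul_one]; exact h1⟩
    have h3 : (t⁻¹ * (r * t * r⁻¹)) * r ∈ R := R.mul_mem h2 ⟨hr, m, hm, hrm⟩
    have e2 : (t⁻¹ * (r * t * r⁻¹)) * r = t⁻¹ * r * t := by group
    rwa [e2] at h3
  have hinv : Inv T R := by
    intro n hn r hr
    by_cases hnR : n ∈ R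
    · exact R.mul_mem (R.mul_mem hnR hr) (R.inv_mem hnR)
    · have hn' : n⁻¹ ∉ R := fun h' => hnR (by simpa using R.inv_mem h')
      have := claim2 n⁻¹ (T.inv_mem hn) hn' r hr
      simpa using this
  have hRbot : R = ⊥ := by
    rcases h.simp R hRT hinv with h1 | h1
    · exact h1
    · exfalso
      have : t₀ ∈ R := by rw [h1]; exact ht₀
      obtain ⟨-, m, hm, htm⟩ := this
      exact hR m hm htm
  have hR1 : ∀ t ∈ R, t = 1 := by
    intro t ht
    rw [hRbot] at ht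
    exact Subgroup.mem_bot.mp ht
  -- (3)
  have hNHM : ∀ x, x ∈ N → x ∈ H → x ∈ M := by
    intro x hxN hxH
    obtain ⟨t, ht, m, hm, rfl⟩ := h.prod x hxN
    have : t = 1 := hR1 t ⟨ht, m, hm, hxH⟩
    rw [this, one_mul]
    exact hm
  have hNH : ∀ x, x ∈ N → x ∈ H → x = 1 := by
    intro x hxN hxH
    apply hs.cen x hxN
    have hle : N ≤ Subgroup.centralizer ({x} : Set G) := by
      apply H31EPTMLem.gen_H hs h
      intro y hy t ht
      rw [Subgroup.mem_centralizer_singleton_iff]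
      have hyx : y⁻¹ * x * y ∈ M := by
        apply hNHM
        · have := hs.nN.conj_mem x hxN y⁻¹
          simpa using this
        · exact H.mul_mem (H.mul_mem (H.inv_mem hy) hxH) hy
      have hc := h.comm t ht _ hyx
      calc y * t * y⁻¹ * x = y * (t * (y⁻¹ * x * y)) * y⁻¹ := by group
        _ = y * ((y⁻¹ * x * y) * t) * y⁻¹ := by rw [hc]
        _ = x * (y * t * y⁻¹) := by group
    intro n hn
    have := hle hn
    rw [Subgroup.mem_centralizer_singleton_iff] at this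
    exact this
  refine ⟨hNH, ?_⟩
  -- (4)
  intro l hl hlT t ht
  by_cases ht1 : t = 1
  · rw [ht1]; group
  · have htR : t ∉ R := fun h' => ht1 (hR1 t h')
    have h1 := key1 t ht htR l (hmemL l hl hlT)
    have h2 : t⁻¹ * (l * t * l⁻¹) ∈ N := h.T_le (T.mul_mem (T.inv_mem ht) (hlT t ht))
    have h3 := hNH _ h2 h1
    exact (inv_mul_eq_one.mp h3).symm

end Cfsg.Agent.Lib.H31EPC1
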