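import Mathlib
import Cfsg.Agent.Lib.H31EPDefs
import Cfsg.Agent.Lib.H31EPTMLem

set_option autoImplicit false

namespace Cfsg.Agent.Lib.H31EPC2

open Cfsg.Agent.Lib.H31EPDefs Function

variable {G : Type*} [Group G] {H N T M : Subgroup G}

private theorem mnp_congr {s s' : Multiset G} (h : s = s') (c : {x | x ∈ s}.Pairwise Commute)
    (c' : {x | x ∈ s'}.Pairwise Commute) : s.noncommProd c = s'.noncommProd c' := by
  subst h; rfl

private theorem prod_split [DecidableEq G] (S : Finset G) (comm : (S : Set G).Pairwise (Commute on id))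
    (t : G) (ht : t ∈ S) (M : Subgroup G) (hM : ∀ y ∈ S, y ≠ t → y ∈ M) :
    ∃ m ∈ M, S.noncommProd id comm = t * m := by
  obtain ⟨S', hS', rfl⟩ : ∃ S', t ∉ S' ∧ S = insert t S' :=
    ⟨S.erase t, Finset.notMem_erase _ _, (Finset.insert_erase ht).symm⟩
  rw [Finset.noncommProd_insert_of_notMem _ _ _ _ hS']
  refine ⟨_, Subgroup.noncommProd_mem M _ (fun c hc => hM c (Finset.mem_insert_of_mem hc) ?_), rfl⟩
  rintro rfl
  exact hS' hc

private theorem prod_conj (S : Finset G) (comm : (S : Set G).Pairwise (Commute on id))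
    (x : G) (hx : ∀ y, y ∈ S ↔ x * y * x⁻¹ ∈ S) :
    x * S.noncommProd id comm * x⁻¹ = S.noncommProd id comm := by
  have h1 := Finset.map_noncommProd S id comm (MulAut.conj x)
  rw [MulAut.conj_apply] at h1
  rw [h1]
  unfold Finset.noncommProd
  apply mnp_congr
  rw [Multiset.map_id]
  have h2 : S.map (MulAut.conj x).toEquiv.toEmbedding = S := by
    ext y
    rw [Finset.mem_map]
    constructor
    · rintro ⟨a, ha, rfl⟩
      exact (hx a).1 ha
    · intro hy
      refine ⟨x⁻¹ * y * x, ?_, ?_⟩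
      · rw [hx]
        have : x * (x⁻¹ * y * x) * x⁻¹ = y := by group
        rw [this]; exact hy
      · change x * (x⁻¹ * y * x) * x⁻¹ = y
        group
  have h3 := congrArg Finset.val h2
  rw [Finset.map_val] at h3
  exact h3

theorem orbit_false [Finite G] (hs : Setting H N) (h : TM N T M)
    (hNH : ∀ x, x ∈ N → x ∈ H → x = 1)
    (hL : ∀ l ∈ H, (∀ t ∈ T, l * t * l⁻¹ ∈ T) → ∀ t ∈ T, l * t * l⁻¹ = t) : False := by
  classical
  haveI : Fintype G := Fintype.ofFinite G
  obtain ⟨t, htT, ht1⟩ : ∃ t ∈ T, t ≠ 1 := by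
    by_contra hcon
    push Not at hcon
    exact Cfsg.Agent.Lib.H31EPTMLem.T_ne_bot h ((Subgroup.eq_bot_iff_forall _).2 hcon)
  have ha : ∀ x ∈ H, x * t * x⁻¹ = t ∨ x * t * x⁻¹ ∈ M := by
    intro x hx
    rcases h.alt x with h1 | h1
    · left; exact hL x hx h1 t htT
    · right; exact h1 t htT
  have hb : ∀ x ∈ H, t * (x * t * x⁻¹) = (x * t * x⁻¹) * t := by
    intro x hx
    rcases ha x hx with h1 | h1
    · rw [h1]
    · exact h.comm t htT _ h1
  obtain ⟨O, hO⟩ : ∃ O : Finset G, ∀ y, y ∈ O ↔ ∃ x ∈ H, y = x * t * x⁻¹ :=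
    ⟨Finset.univ.filter (fun y => ∃ x ∈ H, y = x * t * x⁻¹), fun y => by simp⟩
  have comm : (O : Set G).Pairwise (Commute on id) := by
    intro y1 hy1 y2 hy2 _
    obtain ⟨x1, hx1, rfl⟩ := (hO y1).1 hy1
    obtain ⟨x2, hx2, rfl⟩ := (hO y2).1 hy2
    have h1 := hb (x1⁻¹ * x2) (H.mul_mem (H.inv_mem hx1) hx2)
    change (x1 * t * x1⁻¹) * (x2 * t * x2⁻¹) = (x2 * t * x2⁻¹) * (x1 * t * x1⁻¹)
    calc (x1 * t * x1⁻¹) * (x2 * t * x2⁻¹)
        = x1 * (t * ((x1⁻¹ * x2) * t * (x1⁻¹ * x2)⁻¹)) * x1⁻¹ := by group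
      _ = x1 * (((x1⁻¹ * x2) * t * (x1⁻¹ * x2)⁻¹) * t) * x1⁻¹ := by rw [h1]
      _ = (x2 * t * x2⁻¹) * (x1 * t * x1⁻¹) := by group
  have htO : t ∈ O := (hO t).2 ⟨1, H.one_mem, by group⟩
  obtain ⟨m, hm, hz⟩ := prod_split O comm t htO M (by
    intro y hy hne
    obtain ⟨x, hx, rfl⟩ := (hO y).1 hy
    exact (ha x hx).resolve_left hne)
  have hconj : ∀ x ∈ H, x * O.noncommProd id comm * x⁻¹ = O.noncommProd id comm := by
    intro x hx
    apply prod_conj
    intro y
    rw [hO, hO]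
    constructor
    · rintro ⟨x', hx', rfl⟩
      exact ⟨x * x', H.mul_mem hx hx', by group⟩
    · rintro ⟨x', hx', he⟩
      refine ⟨x⁻¹ * x', H.mul_mem (H.inv_mem hx) hx', ?_⟩
      have : y = x⁻¹ * (x * y * x⁻¹) * x := by group
      rw [this, he]; group
  generalize O.noncommProd id comm = z at hz hconj
  have hzN : z ∈ N := by
    rw [hz]; exact N.mul_mem (h.T_le htT) (h.M_le hm)
  have hz1 : z ≠ 1 := by
    intro h1
    apply ht1
    apply h.disj t htT
    have : t = m⁻¹ := by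
      rw [hz] at h1
      exact eq_inv_of_mul_eq_one_left h1
    rw [this]; exact M.inv_mem hm
  have hzH : z ∉ H := fun hh => hz1 (hNH z hzN hh)
  have hle : H ≤ Subgroup.centralizer ({z} : Set G) := by
    intro x hx
    rw [Subgroup.mem_centralizer_singleton_iff]
    have := hconj x hx
    rwa [mul_inv_eq_iff_eq_mul] at this
  have hlt : H < Subgroup.centralizer ({z} : Set G) := by
    refine lt_of_le_of_ne hle ?_
    intro he
    apply hzH
    rw [he, Subgroup.mem_centralizer_singleton_iff]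
  have htop := hs.max.2 _ hlt
  apply hz1
  apply hs.cen z hzN
  intro n _
  have : n ∈ Subgroup.centralizer ({z} : Set G) := by rw [htop]; trivial
  rwa [Subgroup.mem_centralizer_singleton_iff] at this

end Cfsg.Agent.Lib.H31EPC2
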