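import Mathlib
import Cfsg.Agent.Lib.H31EPDefs
import Cfsg.Agent.Lib.H31EPTMLem

set_option autoImplicit false

namespace Cfsg.Agent.Lib.H31EPC3a

open Cfsg.Agent.Lib.H31EPDefs

variable {G : Type*} [Group G] {H N T M : Subgroup G}

/-- PIECE C3a (30m).  If `N ∩ H` projects onto `T` then `T ∩ H = 1`.
`S = T ⊓ H` is `T`-invariant: for `s ∈ S`, `t ∈ T` pick `m ∈ M` with `t m ∈ H`; `(t m) s (t m)⁻¹ = t s t⁻¹` (`m` commutes with `T`) lies in
`H` and in `T`.  By `TM.simp`, `S = ⊥` or `S = T`.  If `T ≤ H` then all `H`-conjugates of `T` are in `H`, so `N ≤ H` (`TMLem.gen_H`),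
contradicting `Setting.notle`. -/
theorem inter_bot (hs : Setting H N) (h : TM N T M) (hR : ∀ t ∈ T, ∃ m ∈ M, t * m ∈ H) :
    ∀ x, x ∈ T → x ∈ H → x = 1 := by
  have hinv : Inv T (T ⊓ H) := by
    intro t ht s hs'
    rw [Subgroup.mem_inf] at hs' ⊢
    refine ⟨T.mul_mem (T.mul_mem ht hs'.1) (T.inv_mem ht), ?_⟩
    obtain ⟨m, hm, htm⟩ := hR t ht
    have h1 : (t * m) * s * (t * m)⁻¹ ∈ H := H.mul_mem (H.mul_mem htm hs'.2) (H.inv_mem htm)
    have e : (t * m) * s * (t * m)⁻¹ = t * s * t⁻¹ := by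
      have := h.comm s hs'.1 m hm
      calc (t * m) * s * (t * m)⁻¹ = t * (m * s) * m⁻¹ * t⁻¹ := by group
        _ = t * (s * m) * m⁻¹ * t⁻¹ := by rw [this]
        _ = t * s * t⁻¹ := by group
    rwa [e] at h1
  rcases h.simp _ inf_le_left hinv with h1 | h1
  · intro x hxT hxH
    have : x ∈ T ⊓ H := ⟨hxT, hxH⟩
    rw [h1, Subgroup.mem_bot] at this
    exact this
  · exfalso
    have hTH : T ≤ H := by rw [← h1]; exact inf_le_right
    apply hs.notle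
    apply Cfsg.Agent.Lib.H31EPTMLem.gen_H hs h
    intro x hx t ht
    exact H.mul_mem (H.mul_mem hx (hTH ht)) (H.inv_mem hx)

/-- the same for an `H`-conjugate of `T` (conjugate back by `y⁻¹ ∈ H`). -/
theorem inter_bot_cj (hs : Setting H N) (h : TM N T M) (hR : ∀ t ∈ T, ∃ m ∈ M, t * m ∈ H)
    (y : G) (hy : y ∈ H) (t : G) (ht : t ∈ T) (hH : y * t * y⁻¹ ∈ H) : t = 1 := by
  apply inter_bot hs h hR t ht
  have h1 : y⁻¹ * (y * t * y⁻¹) * y ∈ H := H.mul_mem (H.mul_mem (H.inv_mem hy) hH) hy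
  have e : y⁻¹ * (y * t * y⁻¹) * y = t := by group
  rwa [e] at h1

end Cfsg.Agent.Lib.H31EPC3a
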