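import Mathlib
import Cfsg.Agent.Lib.H31EPDefs
import Cfsg.Agent.Lib.H31EPTMLem
import Cfsg.Agent.Lib.H31EPC3a

set_option autoImplicit false

namespace Cfsg.Agent.Lib.H31EPC3b

open Cfsg.Agent.Lib.H31EPDefs

variable {G : Type*} [Group G] {H N T M : Subgroup G}

/-- `N_H(T)` is not contained in `stab H t` (`1 ≠ t ∈ T`): take `a ∈ T` not commuting with `t` (`TMLem.center_free`), `m ∈ M` with
`l = a m ∈ H`; `l ∈ N` maps `T` into `T`; if `l ∈ stab H t` then `t⁻¹ (l t l⁻¹) = t⁻¹ a t a⁻¹ ∈ H ∩ T = 1` (`C3a.inter_bot`), so `a t = t a`. -/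
theorem exists_not_stab (hs : Setting H N) (h : TM N T M) (hR : ∀ t ∈ T, ∃ m ∈ M, t * m ∈ H)
    (t : G) (ht : t ∈ T) (ht1 : t ≠ 1) :
    ∃ l ∈ H, (∀ s ∈ T, l * s * l⁻¹ ∈ T) ∧ l ∉ stab H t := by
  obtain ⟨a, ha, hat⟩ : ∃ a ∈ T, a * t ≠ t * a := by
    by_contra hcon
    push Not at hcon
    exact ht1 (H31EPTMLem.center_free h t ht hcon)
  obtain ⟨m, hm, ham⟩ := hR a ha
  refine ⟨a * m, ham, h.invT _ (N.mul_mem (h.T_le ha) (h.M_le hm)), fun hl => ?_⟩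
  have h1 := (mem_stab' ham).1 hl
  have e : (a * m) * t * (a * m)⁻¹ = a * t * a⁻¹ := by
    calc (a * m) * t * (a * m)⁻¹ = a * (m * t) * m⁻¹ * a⁻¹ := by group
      _ = a * (t * m) * m⁻¹ * a⁻¹ := by rw [h.comm t ht m hm]
      _ = a * t * a⁻¹ := by group
  rw [e] at h1
  have h2 := H31EPC3a.inter_bot hs h hR _
    (T.mul_mem (T.inv_mem ht) (T.mul_mem (T.mul_mem ha ht) (T.inv_mem ha))) h1
  apply hat
  have h3 : a * t * a⁻¹ = t := (inv_mul_eq_one.mp h2).symm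
  calc a * t = (a * t * a⁻¹) * a := by group
    _ = t * a := by rw [h3]

/-- PIECE C3b (45m).  For `1 ≠ t ∈ T` some `x ∈ H` moves `T` into `M` and fixes the point `t • α`.
Let `L = H ⊓ normalizer T`; `L ≠ H` (`TMLem.exists_moved`, `not_both`).  If every `x ∈ stab H t` mapped `T` into `T` then `stab H t ≤ L`
(`TMLem.mem_normalizer`), so by `EP` (`X = L`) `L = stab H t` or `L = H`; the first contradicts `exists_not_stab`.  So some `x ∈ stab H t` does not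
map `T` into `T`; by `alt` it maps `T` into `M`; `mem_stab'`. -/
theorem exists_swap [Finite G] (hs : Setting H N) (h : TM N T M)
    (hR : ∀ t ∈ T, ∃ m ∈ M, t * m ∈ H) (t : G) (ht : t ∈ T) (ht1 : t ≠ 1) :
    ∃ x ∈ H, (∀ s ∈ T, x * s * x⁻¹ ∈ M) ∧ t⁻¹ * (x * t * x⁻¹) ∈ H := by
  by_contra hcon
  push Not at hcon
  obtain ⟨L, hLdef⟩ : ∃ L : Subgroup G, L = H ⊓ Subgroup.normalizer (T : Set G) := ⟨_, rfl⟩
  have hLH : L ≤ H := by rw [hLdef]; exact inf_le_left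
  have hLT : ∀ l ∈ L, ∀ t ∈ T, l * t * l⁻¹ ∈ T := by
    intro l hl t ht
    rw [hLdef] at hl
    exact (Subgroup.mem_normalizer_iff.mp hl.2 t).mp ht
  have hLne : L ≠ H := by
    intro hLH'
    obtain ⟨x, hxH, hx⟩ := H31EPTMLem.exists_moved hs h
    exact H31EPTMLem.not_both h x (hLT x (by rw [hLH']; exact hxH)) hx
  have hle : stab H t ≤ L := by
    intro x hx
    have hxH : x ∈ H := stab_le H t hx
    rcases h.alt x with hT | hM
    · rw [hLdef]
      exact ⟨hxH, H31EPTMLem.mem_normalizer h x hT⟩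
    · exact absurd ((mem_stab' hxH).1 hx) (hcon x hxH hM)
  have hL : L = stab H t := (hs.ep t L hle hLH).resolve_right hLne
  obtain ⟨l, hl, hlT, hlS⟩ := exists_not_stab hs h hR t ht ht1
  apply hlS
  rw [← hL, hLdef]
  exact ⟨hl, H31EPTMLem.mem_normalizer h l hlT⟩

end Cfsg.Agent.Lib.H31EPC3b
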