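import Mathlib
import Cfsg.Agent.Lib.H31EPDefs
import Cfsg.Agent.Lib.H31EPTMLem

set_option autoImplicit false

namespace Cfsg.Agent.Lib.H31EPC3e

open Cfsg.Agent.Lib.H31EPDefs

variable {G : Type*} [Group G] {H N T M : Subgroup G}

/-- PIECE C3e (45m).  If one element `t₁ (g s₁ g⁻¹) ∈ H` with `1 ≠ t₁ ∈ T`, `s₁ ∈ T`, `g T g⁻¹ ≤ M`, then EVERY `a ∈ T` has a partner in `g T g⁻¹`.
`S = {a ∈ T | ∃ s ∈ T, a (g s g⁻¹) ∈ H}` is a subgroup of `T` (`g s g⁻¹ ∈ M` commutes with `T`: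
`(a u)(a' u') = (a a')(u u')`, `(a u)⁻¹ = a⁻¹ u⁻¹`), and it is `T`-invariant: for `b ∈ T` pick `m ∈ M` with `b m ∈ H`; then
`(b m)(a u)(b m)⁻¹ = (b a b⁻¹)(m u m⁻¹)` (everything in `M` commutes with `T`) and `m u m⁻¹ ∈ g T g⁻¹` by `TMLem.inv_cj`.
`S ≠ ⊥` as `t₁ ∈ S`.  So `S = T` by `TM.simp`. -/
theorem surj (hs : Setting H N) (h : TM N T M) (hR : ∀ t ∈ T, ∃ m ∈ M, t * m ∈ H)
    (g : G) (hg : ∀ t ∈ T, g * t * g⁻¹ ∈ M) (t₁ s₁ : G) (ht₁ : t₁ ∈ T) (hs₁ : s₁ ∈ T) (h1 : t₁ ≠ 1)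
    (hH : t₁ * (g * s₁ * g⁻¹) ∈ H) :
    ∀ a ∈ T, ∃ s ∈ T, a * (g * s * g⁻¹) ∈ H := by
  let S : Subgroup G :=
    { carrier := {a | a ∈ T ∧ ∃ s ∈ T, a * (g * s * g⁻¹) ∈ H}
      mul_mem' := by
        rintro a a' ⟨ha, s, hs', has⟩ ⟨ha', s', hs'', has'⟩
        refine ⟨T.mul_mem ha ha', s * s', T.mul_mem hs' hs'', ?_⟩
        have c := h.comm a' ha' _ (hg s hs')
        have e : a * a' * (g * (s * s') * g⁻¹) = (a * (g * s * g⁻¹)) * (a' * (g * s' * g⁻¹)) := by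
          calc a * a' * (g * (s * s') * g⁻¹) = a * (a' * (g * s * g⁻¹)) * (g * s' * g⁻¹) := by group
            _ = a * ((g * s * g⁻¹) * a') * (g * s' * g⁻¹) := by rw [c]
            _ = (a * (g * s * g⁻¹)) * (a' * (g * s' * g⁻¹)) := by group
        rw [e]
        exact H.mul_mem has has'
      one_mem' := ⟨T.one_mem, 1, T.one_mem, by simp [H.one_mem]⟩
      inv_mem' := by
        rintro a ⟨ha, s, hs', has⟩
        refine ⟨T.inv_mem ha, s⁻¹, T.inv_mem hs', ?_⟩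
        have c := h.comm a ha _ (hg s hs')
        have e : a⁻¹ * (g * s⁻¹ * g⁻¹) = (a * (g * s * g⁻¹))⁻¹ := by
          rw [c]
          group
        rw [e]
        exact H.inv_mem has }
  have hST : S ≤ T := fun a ha => ha.1
  have hinv : Inv T S := by
    rintro b hb a ⟨ha, s, hs', has⟩
    obtain ⟨m, hm, hbm⟩ := hR b hb
    obtain ⟨t', ht', e'⟩ := H31EPTMLem.inv_cj hs.nN h g m s (h.M_le hm) hs'
    refine ⟨T.mul_mem (T.mul_mem hb ha) (T.inv_mem hb), t', ht', ?_⟩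
    rw [← e']
    have hu : g * s * g⁻¹ ∈ M := hg s hs'
    have c1 : a * m = m * a := h.comm a ha m hm
    have c2 : b⁻¹ * (m * (g * s * g⁻¹) * m⁻¹) = (m * (g * s * g⁻¹) * m⁻¹) * b⁻¹ :=
      h.comm b⁻¹ (T.inv_mem hb) _ (M.mul_mem (M.mul_mem hm hu) (M.inv_mem hm))
    have e : (b * a * b⁻¹) * (m * (g * s * g⁻¹) * m⁻¹)
        = (b * m) * (a * (g * s * g⁻¹)) * (b * m)⁻¹ := by
      calc (b * a * b⁻¹) * (m * (g * s * g⁻¹) * m⁻¹)
          = b * a * (b⁻¹ * (m * (g * s * g⁻¹) * m⁻¹)) := by group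
        _ = b * a * ((m * (g * s * g⁻¹) * m⁻¹) * b⁻¹) := by rw [c2]
        _ = b * (a * m) * (g * s * g⁻¹) * m⁻¹ * b⁻¹ := by group
        _ = b * (m * a) * (g * s * g⁻¹) * m⁻¹ * b⁻¹ := by rw [c1]
        _ = (b * m) * (a * (g * s * g⁻¹)) * (b * m)⁻¹ := by group
    rw [e]
    exact H.mul_mem (H.mul_mem hbm has) (H.inv_mem hbm)
  have hS : S = T := by
    rcases h.simp S hST hinv with h0 | h0
    · exfalso
      have : t₁ ∈ S := ⟨ht₁, s₁, hs₁, hH⟩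
      rw [h0] at this
      exact h1 (Subgroup.mem_bot.mp this)
    · exact h0
  intro a ha
  have : a ∈ S := by rw [hS]; exact ha
  exact this.2

end Cfsg.Agent.Lib.H31EPC3e
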