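import Mathlib
import Cfsg.Agent.Lib.H31EPDefs
import Cfsg.Agent.Lib.H31EPTMLem
import Cfsg.Agent.Lib.H31EPC3a
import Cfsg.Agent.Lib.H31EPC3e

set_option autoImplicit false

namespace Cfsg.Agent.Lib.H31EPC3c

open Cfsg.Agent.Lib.H31EPDefs

variable {G : Type*} [Group G] {H N T M : Subgroup G}

/-- PIECE C3c (45m).  The partner of `T` is unique: if `H` contains `t₁ (g₁ s₁ g₁⁻¹)` and `t₂ (g₂ s₂ g₂⁻¹)` with `1 ≠ t₁, t₂ ∈ T`,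
`g₁ T g₁⁻¹, g₂ T g₂⁻¹ ≤ M`, then `g₁ T g₁⁻¹ = g₂ T g₂⁻¹`, i.e. `g₂⁻¹ g₁` maps `T` into `T`.
Otherwise `g₂⁻¹ g₁` maps `T` into `M` (`alt`), so `g₁ T g₁⁻¹` and `g₂ T g₂⁻¹` commute elementwise (`TMLem.comm_cj`).  Take `a, b ∈ T` with `a b ≠ b a` (`nab`).
By `C3e.surj` there are `u ∈ g₁ T g₁⁻¹`, `v ∈ g₂ T g₂⁻¹` with `a u ∈ H`, `b v ∈ H`.  As `T`, `u`, `v` commute pairwise,
`(a u)(b v)(a u)⁻¹(b v)⁻¹ = a b a⁻¹ b⁻¹ ∈ H ∩ T = 1` (`C3a.inter_bot`): contradiction. -/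
theorem partner_unique (hs : Setting H N) (h : TM N T M) (hR : ∀ t ∈ T, ∃ m ∈ M, t * m ∈ H)
    (g₁ g₂ : G) (hg₁ : ∀ t ∈ T, g₁ * t * g₁⁻¹ ∈ M) (hg₂ : ∀ t ∈ T, g₂ * t * g₂⁻¹ ∈ M)
    (t₁ s₁ t₂ s₂ : G) (ht₁ : t₁ ∈ T) (hs₁ : s₁ ∈ T) (ht₂ : t₂ ∈ T) (hs₂ : s₂ ∈ T)
    (h1 : t₁ ≠ 1) (h2 : t₂ ≠ 1)
    (hH₁ : t₁ * (g₁ * s₁ * g₁⁻¹) ∈ H) (hH₂ : t₂ * (g₂ * s₂ * g₂⁻¹) ∈ H) :
    ∀ t ∈ T, (g₂⁻¹ * g₁) * t * (g₂⁻¹ * g₁)⁻¹ ∈ T := by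
  rcases h.alt (g₂⁻¹ * g₁) with hT | hM
  · exact hT
  exfalso
  obtain ⟨a, ha, b, hb, hab⟩ := h.nab
  obtain ⟨s, hs', hau⟩ := H31EPC3e.surj hs h hR g₁ hg₁ t₁ s₁ ht₁ hs₁ h1 hH₁ a ha
  obtain ⟨s', hs'', hbv⟩ := H31EPC3e.surj hs h hR g₂ hg₂ t₂ s₂ ht₂ hs₂ h2 hH₂ b hb
  obtain ⟨u, hu⟩ : ∃ u, u = g₁ * s * g₁⁻¹ := ⟨_, rfl⟩
  obtain ⟨v, hv⟩ : ∃ v, v = g₂ * s' * g₂⁻¹ := ⟨_, rfl⟩
  have huv : u * v = v * u := by
    rw [hu, hv]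
    exact H31EPTMLem.comm_cj h g₁ g₂ hM s s' hs' hs''
  have huM : u ∈ M := by rw [hu]; exact hg₁ s hs'
  have hvM : v ∈ M := by rw [hv]; exact hg₂ s' hs''
  rw [← hu] at hau
  rw [← hv] at hbv
  have cau : a * u = u * a := h.comm a ha u huM
  have cav : a * v = v * a := h.comm a ha v hvM
  have cbu : b * u = u * b := h.comm b hb u huM
  have cbv : b * v = v * b := h.comm b hb v hvM
  have hcomm : (a * u) * (b * v) * (a * u)⁻¹ * (b * v)⁻¹ = a * b * a⁻¹ * b⁻¹ := by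
    have e1 : (a * u) * (b * v) = (a * b) * (u * v) := by
      calc (a * u) * (b * v) = a * (u * b) * v := by group
        _ = a * (b * u) * v := by rw [cbu]
        _ = (a * b) * (u * v) := by group
    have e2 : (b * v) * (a * u) = (b * a) * (u * v) := by
      calc (b * v) * (a * u) = b * (v * a) * u := by group
        _ = b * (a * v) * u := by rw [cav]
        _ = b * a * (v * u) := by group
        _ = (b * a) * (u * v) := by rw [huv]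
    have e3 : (a * u) * (b * v) * (a * u)⁻¹ * (b * v)⁻¹
        = ((a * u) * (b * v)) * ((b * v) * (a * u))⁻¹ := by group
    rw [e3, e1, e2]
    group
  have hH : a * b * a⁻¹ * b⁻¹ ∈ H := by
    rw [← hcomm]
    exact H.mul_mem (H.mul_mem (H.mul_mem hau hbv) (H.inv_mem hau)) (H.inv_mem hbv)
  have hTm : a * b * a⁻¹ * b⁻¹ ∈ T :=
    T.mul_mem (T.mul_mem (T.mul_mem ha hb) (T.inv_mem ha)) (T.inv_mem hb)
  have h3 := H31EPC3a.inter_bot hs h hR _ hTm hH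
  apply hab
  have : a * b = (a * b * a⁻¹ * b⁻¹) * (b * a) := by group
  rw [this, h3, one_mul]

end Cfsg.Agent.Lib.H31EPC3c
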