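import Mathlib
import Cfsg.Agent.Lib.H31EPDefs
import Cfsg.Agent.Lib.H31EPTMLem
import Cfsg.Agent.Lib.H31EPC3c

set_option autoImplicit false

namespace Cfsg.Agent.Lib.H31EPC3d1

open Cfsg.Agent.Lib.H31EPDefs

variable {G : Type*} [Group G] {H N T M : Subgroup G}

/-- PIECE C3d1 (45m).  `e₀ = t₀⁻¹ (x₀ t₀ x₀⁻¹) ∈ H`, `x₀ ∈ H` moves `T` into `M`.  If `y ∈ H` maps `T` into `T`, then `x₀⁻¹ y x₀` maps `T` into `T`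
(i.e. `y` normalises `B = x₀ T x₀⁻¹`).
`g₁ = y x₀` maps `T` into `M`: otherwise (`alt`) it maps `T` into `T`, and then so does `x₀ = y⁻¹ (y x₀)` (`TMLem.inv_maps`), contradicting
`TMLem.not_both`.  `y e₀ y⁻¹ = (y t₀⁻¹ y⁻¹) ((y x₀) t₀ (y x₀)⁻¹) ∈ H` with `1 ≠ y t₀⁻¹ y⁻¹ ∈ T`.
`C3c.partner_unique` with `g₁ = y x₀`, `g₂ = x₀`, `t₁ = y t₀⁻¹ y⁻¹`, `s₁ = t₀`, `t₂ = t₀⁻¹`, `s₂ = t₀` gives that `x₀⁻¹ (y x₀)` maps `T` into `T`. -/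
theorem fix [Finite G] (hs : Setting H N) (h : TM N T M) (hR : ∀ t ∈ T, ∃ m ∈ M, t * m ∈ H)
    (t₀ x₀ : G) (ht₀ : t₀ ∈ T) (h1 : t₀ ≠ 1) (hx₀ : x₀ ∈ H) (hx₀M : ∀ s ∈ T, x₀ * s * x₀⁻¹ ∈ M)
    (he : t₀⁻¹ * (x₀ * t₀ * x₀⁻¹) ∈ H) (y : G) (hy : y ∈ H) (hyT : ∀ t ∈ T, y * t * y⁻¹ ∈ T) :
    ∀ t ∈ T, (x₀⁻¹ * y * x₀) * t * (x₀⁻¹ * y * x₀)⁻¹ ∈ T := by
  have hg₁ : ∀ t ∈ T, (y * x₀) * t * (y * x₀)⁻¹ ∈ M := by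
    rcases h.alt (y * x₀) with hT | hM
    · exfalso
      refine H31EPTMLem.not_both h x₀ (fun t ht => ?_) hx₀M
      have h3 := H31EPTMLem.inv_maps h y hyT _ (hT t ht)
      have e : y⁻¹ * ((y * x₀) * t * (y * x₀)⁻¹) * y⁻¹⁻¹ = x₀ * t * x₀⁻¹ := by group
      rwa [e] at h3
    · exact hM
  have hE : (y * t₀⁻¹ * y⁻¹) * ((y * x₀) * t₀ * (y * x₀)⁻¹) ∈ H := by
    have e : (y * t₀⁻¹ * y⁻¹) * ((y * x₀) * t₀ * (y * x₀)⁻¹)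
        = y * (t₀⁻¹ * (x₀ * t₀ * x₀⁻¹)) * y⁻¹ := by group
    rw [e]
    exact H.mul_mem (H.mul_mem hy he) (H.inv_mem hy)
  have ht₀' : t₀⁻¹ ≠ 1 := fun h0 => h1 (inv_eq_one.mp h0)
  have ht₁ : y * t₀⁻¹ * y⁻¹ ≠ 1 := by
    intro h0
    apply ht₀'
    have e : t₀⁻¹ = y⁻¹ * (y * t₀⁻¹ * y⁻¹) * y := by group
    rw [e, h0]
    group
  have hpu := H31EPC3c.partner_unique hs h hR (y * x₀) x₀ hg₁ hx₀M (y * t₀⁻¹ * y⁻¹) t₀ t₀⁻¹ t₀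
    (hyT _ (T.inv_mem ht₀)) ht₀ (T.inv_mem ht₀) ht₀ ht₁ ht₀' hE he
  rw [← mul_assoc] at hpu
  exact hpu

/-- If `y ∈ stab H t₀` moves `T` into `M` then `y T y⁻¹ = x₀ T x₀⁻¹`, i.e. `x₀⁻¹ y` maps `T` into `T`:
`mem_stab'` gives `t₀⁻¹ (y t₀ y⁻¹) ∈ H`; `C3c.partner_unique` with `g₁ = y`, `g₂ = x₀`, `t₁ = t₂ = t₀⁻¹`, `s₁ = s₂ = t₀`. -/
theorem of_stab (hs : Setting H N) (h : TM N T M) (hR : ∀ t ∈ T, ∃ m ∈ M, t * m ∈ H)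
    (t₀ x₀ : G) (ht₀ : t₀ ∈ T) (h1 : t₀ ≠ 1) (hx₀ : x₀ ∈ H) (hx₀M : ∀ s ∈ T, x₀ * s * x₀⁻¹ ∈ M)
    (he : t₀⁻¹ * (x₀ * t₀ * x₀⁻¹) ∈ H) (y : G) (hy : y ∈ stab H t₀) (hyM : ∀ t ∈ T, y * t * y⁻¹ ∈ M) :
    ∀ t ∈ T, (x₀⁻¹ * y) * t * (x₀⁻¹ * y)⁻¹ ∈ T := by
  have ht₀' : t₀⁻¹ ≠ 1 := fun h0 => h1 (inv_eq_one.mp h0)
  have hyH : y ∈ H := stab_le H t₀ hy
  exact H31EPC3c.partner_unique hs h hR y x₀ hyM hx₀M t₀⁻¹ t₀ t₀⁻¹ t₀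
    (T.inv_mem ht₀) ht₀ (T.inv_mem ht₀) ht₀ ht₀' ht₀' ((mem_stab' hyH).1 hy) he

end Cfsg.Agent.Lib.H31EPC3d1
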