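import Mathlib
import Cfsg.Agent.Lib.H31EPDefs
import Cfsg.Agent.Lib.H31EPTMLem
import Cfsg.Agent.Lib.H31EPC3c

set_option autoImplicit false

namespace Cfsg.Agent.Lib.H31EPC3d2

open Cfsg.Agent.Lib.H31EPDefs

variable {G : Type*} [Group G] {H N T M : Subgroup G}

/-- PIECE C3d2 (75m).  `e₀ = t₀⁻¹ (x₀ t₀ x₀⁻¹) ∈ H`, `x₀ ∈ H` moves `T` into `M`.  If `y ∈ H` maps `T` onto `B = x₀ T x₀⁻¹` (i.e. `x₀⁻¹ y` maps `T` into `T`),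
then `y` maps `B` back to `T`, i.e. `y x₀` maps `T` into `T`.
Suppose not; by `alt`, `y x₀` maps `T` into `M`.
* `E1 = x₀⁻¹ e₀ x₀ = (x₀⁻¹ t₀⁻¹ x₀) t₀ = t₀ (x₀⁻¹ t₀⁻¹ x₀) ∈ H`, as `x₀⁻¹ t₀⁻¹ x₀ ∈ M` (`TMLem.inv_moves`) commutes with `t₀`.
  So with `g₁ = x₀⁻¹`, `t₁ = t₀`, `s₁ = t₀⁻¹`: `t₁ (g₁ s₁ g₁⁻¹) ∈ H`, and `g₁` maps `T` into `M`.
* `E2 = x₀⁻¹ (y e₀ y⁻¹) x₀ = t₂ (g₂ t₀ g₂⁻¹) ∈ H` with `t₂ = (x₀⁻¹ y) t₀⁻¹ (x₀⁻¹ y)⁻¹ ∈ T`, `t₂ ≠ 1`, `g₂ = x₀⁻¹ y x₀`.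
* `g₂` maps `T` into `M`: otherwise (`alt`) `g₂` maps `T` into `T`; put `c = x₀⁻¹ y` (maps `T` into `T`, hence ONTO `T`: `TMLem.inv_maps`);
  `g₂ t₀ g₂⁻¹ = c (x₀ t₀ x₀⁻¹) c⁻¹ ∈ T`, so `x₀ t₀ x₀⁻¹ ∈ c⁻¹ T c = T`, but it is in `M`: so `x₀ t₀ x₀⁻¹ = 1`, `t₀ = 1`.
* `C3c.partner_unique` (`g₁ = x₀⁻¹`, `g₂ = x₀⁻¹ y x₀`): `g₂⁻¹ g₁ = (y x₀)⁻¹` maps `T` into `T`; by `TMLem.inv_maps` so does `y x₀`; contradiction with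
  `TMLem.not_both`. -/
theorem back [Finite G] (hs : Setting H N) (h : TM N T M) (hR : ∀ t ∈ T, ∃ m ∈ M, t * m ∈ H)
    (t₀ x₀ : G) (ht₀ : t₀ ∈ T) (h1 : t₀ ≠ 1) (hx₀ : x₀ ∈ H) (hx₀M : ∀ s ∈ T, x₀ * s * x₀⁻¹ ∈ M)
    (he : t₀⁻¹ * (x₀ * t₀ * x₀⁻¹) ∈ H) (y : G) (hy : y ∈ H)
    (hyB : ∀ t ∈ T, (x₀⁻¹ * y) * t * (x₀⁻¹ * y)⁻¹ ∈ T) :
    ∀ t ∈ T, (y * x₀) * t * (y * x₀)⁻¹ ∈ T := by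
  rcases h.alt (y * x₀) with hT | hM
  · exact hT
  exfalso
  have hx₀inv : ∀ t ∈ T, x₀⁻¹ * t * x₀⁻¹⁻¹ ∈ M := H31EPTMLem.inv_moves h x₀ hx₀M
  -- `E1`
  have hE1 : t₀ * (x₀⁻¹ * t₀⁻¹ * x₀⁻¹⁻¹) ∈ H := by
    rw [h.comm t₀ ht₀ _ (hx₀inv _ (T.inv_mem ht₀))]
    have e : x₀⁻¹ * t₀⁻¹ * x₀⁻¹⁻¹ * t₀ = x₀⁻¹ * (t₀⁻¹ * (x₀ * t₀ * x₀⁻¹)) * x₀ := by group
    rw [e]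
    exact H.mul_mem (H.mul_mem (H.inv_mem hx₀) he) hx₀
  -- `E2`
  have hE2 : ((x₀⁻¹ * y) * t₀⁻¹ * (x₀⁻¹ * y)⁻¹) *
      ((x₀⁻¹ * y * x₀) * t₀ * (x₀⁻¹ * y * x₀)⁻¹) ∈ H := by
    have e : ((x₀⁻¹ * y) * t₀⁻¹ * (x₀⁻¹ * y)⁻¹) * ((x₀⁻¹ * y * x₀) * t₀ * (x₀⁻¹ * y * x₀)⁻¹)
        = x₀⁻¹ * (y * (t₀⁻¹ * (x₀ * t₀ * x₀⁻¹)) * y⁻¹) * x₀ := by group
    rw [e]
    exact H.mul_mem (H.mul_mem (H.inv_mem hx₀) (H.mul_mem (H.mul_mem hy he) (H.inv_mem hy))) hx₀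
  have ht₂ : (x₀⁻¹ * y) * t₀⁻¹ * (x₀⁻¹ * y)⁻¹ ≠ 1 := by
    intro h0
    apply h1
    have : t₀⁻¹ = 1 := by
      have e : t₀⁻¹ = (x₀⁻¹ * y)⁻¹ * ((x₀⁻¹ * y) * t₀⁻¹ * (x₀⁻¹ * y)⁻¹) * (x₀⁻¹ * y) := by group
      rw [e, h0]
      group
    exact inv_eq_one.mp this
  have hg₂ : ∀ t ∈ T, (x₀⁻¹ * y * x₀) * t * (x₀⁻¹ * y * x₀)⁻¹ ∈ M := by
    rcases h.alt (x₀⁻¹ * y * x₀) with hg2T | hg2M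
    · exfalso
      have h3 := H31EPTMLem.inv_maps h _ hyB _ (hg2T t₀ ht₀)
      have e : (x₀⁻¹ * y)⁻¹ * ((x₀⁻¹ * y * x₀) * t₀ * (x₀⁻¹ * y * x₀)⁻¹) * (x₀⁻¹ * y)⁻¹⁻¹
          = x₀ * t₀ * x₀⁻¹ := by group
      rw [e] at h3
      have h4 := h.disj _ h3 (hx₀M t₀ ht₀)
      apply h1
      have e2 : t₀ = x₀⁻¹ * (x₀ * t₀ * x₀⁻¹) * x₀ := by group
      rw [e2, h4]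
      group
    · exact hg2M
  have hpu := H31EPC3c.partner_unique hs h hR x₀⁻¹ (x₀⁻¹ * y * x₀) hx₀inv hg₂ t₀ t₀⁻¹
    ((x₀⁻¹ * y) * t₀⁻¹ * (x₀⁻¹ * y)⁻¹) t₀ ht₀ (T.inv_mem ht₀) (hyB _ (T.inv_mem ht₀)) ht₀ h1 ht₂
    hE1 hE2
  have e : (x₀⁻¹ * y * x₀)⁻¹ * x₀⁻¹ = (y * x₀)⁻¹ := by group
  rw [e] at hpu
  have h5 := H31EPTMLem.inv_maps h _ hpu
  rw [inv_inv] at h5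
  exact H31EPTMLem.not_both h _ h5 hM

end Cfsg.Agent.Lib.H31EPC3d2
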