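import Mathlib
import Cfsg.Agent.Lib.H31EPDefs
import Cfsg.Agent.Lib.H31EPTMLem
import Cfsg.Agent.Lib.H31EPC3b
import Cfsg.Agent.Lib.H31EPC3d1
import Cfsg.Agent.Lib.H31EPC3d2

set_option autoImplicit false

namespace Cfsg.Agent.Lib.H31EPC3d4

open Cfsg.Agent.Lib.H31EPDefs

variable {G : Type*} [Group G] {H N T M : Subgroup G}

/-- `y` normalises both `T` and `B`, or swaps them (inclusion form). -/
private def Good (T B : Subgroup G) (y : G) : Prop :=
  ((∀ a ∈ T, y * a * y⁻¹ ∈ T) ∧ (∀ b ∈ B, y * b * y⁻¹ ∈ B)) ∨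
    ((∀ a ∈ T, y * a * y⁻¹ ∈ B) ∧ (∀ b ∈ B, y * b * y⁻¹ ∈ T))

private theorem good_one (T B : Subgroup G) : Good T B 1 := by
  left
  constructor
  · intro a ha
    simpa using ha
  · intro a ha
    simpa using ha

private theorem good_mul (T B : Subgroup G) (a b : G) (ha : Good T B a) (hb : Good T B b) :
    Good T B (a * b) := by
  have e : ∀ t : G, a * b * t * (a * b)⁻¹ = a * (b * t * b⁻¹) * a⁻¹ := by
    intro t
    group
  rcases ha with ⟨a1, a2⟩ | ⟨a1, a2⟩ <;> rcases hb with ⟨b1, b2⟩ | ⟨b1, b2⟩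
  · left
    constructor
    · intro t ht
      rw [e]
      exact a1 _ (b1 _ ht)
    · intro t ht
      rw [e]
      exact a2 _ (b2 _ ht)
  · right
    constructor
    · intro t ht
      rw [e]
      exact a2 _ (b1 _ ht)
    · intro t ht
      rw [e]
      exact a1 _ (b2 _ ht)
  · right
    constructor
    · intro t ht
      rw [e]
      exact a1 _ (b1 _ ht)
    · intro t ht
      rw [e]
      exact a2 _ (b2 _ ht)
  · left
    constructor
    · intro t ht
      rw [e]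
      exact a2 _ (b1 _ ht)
    · intro t ht
      rw [e]
      exact a1 _ (b2 _ ht)

private theorem good_pow (T B : Subgroup G) (a : G) (ha : Good T B a) (n : ℕ) :
    Good T B (a ^ n) := by
  induction n with
  | zero => rw [pow_zero]; exact good_one T B
  | succ k ih => rw [pow_succ]; exact good_mul T B _ _ ih ha

private theorem good_inv [Finite G] (T B : Subgroup G) (a : G) (ha : Good T B a) :
    Good T B a⁻¹ := by
  have e : a⁻¹ = a ^ (orderOf a - 1) := by
    apply inv_eq_of_mul_eq_one_right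
    rw [← pow_succ', Nat.sub_add_cancel (orderOf_pos a), pow_orderOf_eq_one]
  rw [e]
  exact good_pow T B a ha _

/-- the subgroup of the good elements of `H` -/
private def goodSub [Finite G] (H T B : Subgroup G) : Subgroup G where
  carrier := {y | y ∈ H ∧ Good T B y}
  one_mem' := ⟨H.one_mem, good_one T B⟩
  mul_mem' := fun {a b} ha hb => ⟨H.mul_mem ha.1 hb.1, good_mul T B a b ha.2 hb.2⟩
  inv_mem' := fun {a} ha => ⟨H.inv_mem ha.1, good_inv T B a ha.2⟩

/-- PIECE C3d4 (90m).  Every `y ∈ H` normalises both `T` and `B = x₀ T x₀⁻¹` or swaps them.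
Call `y ∈ H` GOOD if (`y` maps `T` into `T` and `x₀⁻¹ y x₀` maps `T` into `T`) or (`x₀⁻¹ y` maps `T` into `T` and `y x₀` maps `T` into `T`).
In terms of `B = T.map (conj x₀)`: (`y T y⁻¹ ≤ T`, `y B y⁻¹ ≤ B`) or (`y T y⁻¹ ≤ B`, `y B y⁻¹ ≤ T`); by finiteness all these inclusions are equalities
(`Subgroup.card_map_of_injective`, `Subgroup.eq_of_le_of_card_ge`).  So the good elements are the elements `y` of `H` with
(`T.map (conj y) = T ∧ B.map (conj y) = B`) or (`T.map (conj y) = B ∧ B.map (conj y) = T`), and they form a subgroup `L₂ ≤ H`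
(`Subgroup.map_map`, `MulAut.conj` is a homomorphism).
* `stab H t₀ ≤ L₂`: for `y ∈ stab H t₀`: if `y` maps `T` into `T` use `C3d1.fix`; otherwise (`alt`) `C3d1.of_stab` and `C3d2.back`.
* the element `l` of `C3b.exists_not_stab` is in `L₂` (`C3d1.fix`) but not in `stab H t₀`.
By `EP` (`x = t₀`, `X = L₂`): `L₂ = H`. -/
theorem act [Finite G] (hs : Setting H N) (h : TM N T M) (hR : ∀ t ∈ T, ∃ m ∈ M, t * m ∈ H)
    (t₀ x₀ : G) (ht₀ : t₀ ∈ T) (h1 : t₀ ≠ 1) (hx₀ : x₀ ∈ H) (hx₀M : ∀ s ∈ T, x₀ * s * x₀⁻¹ ∈ M)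
    (he : t₀⁻¹ * (x₀ * t₀ * x₀⁻¹) ∈ H) (y : G) (hy : y ∈ H) :
    ((∀ a ∈ T, y * a * y⁻¹ ∈ T) ∧
      (∀ b ∈ T.map (MulAut.conj x₀).toMonoidHom, y * b * y⁻¹ ∈ T.map (MulAut.conj x₀).toMonoidHom)) ∨
    ((∀ a ∈ T, y * a * y⁻¹ ∈ T.map (MulAut.conj x₀).toMonoidHom) ∧
      (∀ b ∈ T.map (MulAut.conj x₀).toMonoidHom, y * b * y⁻¹ ∈ T)) := by
  classical
  obtain ⟨B, hB⟩ : ∃ B : Subgroup G, B = T.map (MulAut.conj x₀).toMonoidHom := ⟨_, rfl⟩
  rw [← hB]
  have memB : ∀ b, b ∈ B ↔ ∃ s ∈ T, x₀ * s * x₀⁻¹ = b := by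
    intro b
    rw [hB, Subgroup.mem_map]
    rfl
  -- elements of `H` normalising `T` are good
  have good1 : ∀ z ∈ H, (∀ t ∈ T, z * t * z⁻¹ ∈ T) → Good T B z := by
    intro z hz hzT
    left
    refine ⟨hzT, ?_⟩
    intro b hb
    obtain ⟨s, hsT, rfl⟩ := (memB b).1 hb
    have hf := H31EPC3d1.fix hs h hR t₀ x₀ ht₀ h1 hx₀ hx₀M he z hz hzT s hsT
    rw [memB]
    refine ⟨_, hf, ?_⟩
    group
  have hle : stab H t₀ ≤ goodSub H T B := by
    intro z hz
    have hzH : z ∈ H := stab_le H t₀ hz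
    refine ⟨hzH, ?_⟩
    rcases h.alt z with hzT | hzM
    · exact good1 z hzH hzT
    · right
      have hf := H31EPC3d1.of_stab hs h hR t₀ x₀ ht₀ h1 hx₀ hx₀M he z hz hzM
      have hb := H31EPC3d2.back hs h hR t₀ x₀ ht₀ h1 hx₀ hx₀M he z hzH hf
      constructor
      · intro a ha
        rw [memB]
        refine ⟨_, hf a ha, ?_⟩
        group
      · intro b hbB
        obtain ⟨s, hsT, rfl⟩ := (memB b).1 hbB
        have := hb s hsT
        have e : z * (x₀ * s * x₀⁻¹) * z⁻¹ = z * x₀ * s * (z * x₀)⁻¹ := by group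
        rw [e]
        exact this
  have hleH : goodSub H T B ≤ H := fun z hz => hz.1
  obtain ⟨l, hlH, hlT, hlns⟩ := H31EPC3b.exists_not_stab hs h hR t₀ ht₀ h1
  have hl : l ∈ goodSub H T B := ⟨hlH, good1 l hlH hlT⟩
  rcases hs.ep t₀ (goodSub H T B) hle hleH with h0 | h0
  · exfalso
    rw [h0] at hl
    exact hlns hl
  · have hyG : y ∈ goodSub H T B := by
      rw [h0]
      exact hy
    exact hyG.2

end Cfsg.Agent.Lib.H31EPC3d4
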