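import Mathlib

set_option autoImplicit false

namespace Cfsg.Agent.Lib.H31EPCA

/-- PIECE CA (90m, PURE MATHLIB).  A finite non-abelian simple group `D` has no element `x ≠ 1` such that `A = C_D(x)` satisfies `C_D(y) = A` for all `1 ≠ y ∈ A`
and `N_D(A) = A`.
`A = centralizer {x}` is abelian (for `y, z ∈ A`, `y ≠ 1`: `z x = x z` so `z y = y z` by `hcen`), `A ≠ ⊥`.
(i) If `1 ≠ Q ≤ A` and `g` normalises `Q` then `g ∈ A`: pick `1 ≠ y ∈ Q`; `y' = g y g⁻¹ ∈ Q ≤ A`, `y' ≠ 1`; for all `w`: `w ∈ A ↔ w y = y w ↔ (g w g⁻¹) y' = y' (g w g⁻¹) ↔ g w g⁻¹ ∈ A`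
(using `hcen` for `y` and for `y'`); so `g` normalises `A` in the sense of `hnor` and `g x = x g`.
(ii) A Sylow `p`-subgroup `P` of `D` containing an element `y` of order `p` of `A` lies in `A`: a central element `z ≠ 1` of `P` commutes with `y`, so `z ∈ A`, and
`P ≤ C(z) = A`.
(iii) `normalizer P ≤ A ≤ centralizer P` (by (i); `A` abelian).  Burnside: `MonoidHom.ker_transferSylow_isComplement'` gives a normal complement `K` of `P`.
`D` simple: `K = ⊥` (then `P = ⊤`, `D = A` abelian) or `K = ⊤` (then `P = ⊥`, but `p ∣ card`). Contradiction. -/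
theorem caseA_false {D : Type*} [Group D] [Finite D] [IsSimpleGroup D] (hnab : ∃ a b : D, a * b ≠ b * a)
    (x : D) (hx : x ≠ 1)
    (hcen : ∀ y : D, y ≠ 1 → x * y = y * x → ∀ z : D, (z * y = y * z ↔ z * x = x * z))
    (hnor : ∀ g : D, (∀ y : D, (y * x = x * y ↔ (g * y * g⁻¹) * x = x * (g * y * g⁻¹))) → g * x = x * g) :
    False := by
  -- `A` is abelian
  have hab : ∀ y z : D, y * x = x * y → z * x = x * z → z * y = y * z := by
    intro y z hy hz
    by_cases hy1 : y = 1
    · rw [hy1]; simp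
    · exact (hcen y hy1 hy.symm z).2 hz
  -- (i)
  have hi : ∀ Q : Subgroup D, (∀ y ∈ Q, y * x = x * y) → Q ≠ ⊥ →
      ∀ g ∈ Subgroup.normalizer (Q : Set D), g * x = x * g := by
    intro Q hQA hQ g hg
    obtain ⟨y, hyQ, hy1⟩ := Q.bot_or_exists_ne_one.resolve_left hQ
    have hy'Q : g * y * g⁻¹ ∈ Q := (Subgroup.mem_normalizer_iff.1 hg y).1 hyQ
    have hy'1 : g * y * g⁻¹ ≠ 1 := by
      intro h
      apply hy1
      have : y = g⁻¹ * (g * y * g⁻¹) * g := by group
      rw [this, h]; group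
    apply hnor g
    intro w
    rw [← hcen y hy1 (hQA y hyQ).symm w, ← hcen _ hy'1 (hQA _ hy'Q).symm (g * w * g⁻¹)]
    constructor
    · intro h
      calc g * w * g⁻¹ * (g * y * g⁻¹) = g * (w * y) * g⁻¹ := by group
        _ = g * (y * w) * g⁻¹ := by rw [h]
        _ = _ := by group
    · intro h
      calc w * y = g⁻¹ * (g * w * g⁻¹ * (g * y * g⁻¹)) * g := by group
        _ = g⁻¹ * (g * y * g⁻¹ * (g * w * g⁻¹)) * g := by rw [h]
        _ = _ := by group
  -- an element of prime order in `A`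
  obtain ⟨p, hp, hpx⟩ := Nat.exists_prime_and_dvd (n := orderOf x)
    (fun h => hx (orderOf_eq_one_iff.1 h))
  have : Fact p.Prime := ⟨hp⟩
  obtain ⟨y, hydef⟩ : ∃ y : D, y = x ^ (orderOf x / p) := ⟨_, rfl⟩
  have hyo : orderOf y = p := by
    rw [hydef]; exact orderOf_pow_orderOf_div (orderOf_pos x).ne' hpx
  have hy1 : y ≠ 1 := by
    intro h
    rw [h, orderOf_one] at hyo
    exact hp.one_lt.ne hyo
  have hyx : y * x = x * y := by
    rw [hydef, ← pow_succ, ← pow_succ']
  have hyp : IsPGroup p (Subgroup.zpowers y) := by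
    apply IsPGroup.of_card (n := 1)
    rw [Nat.card_zpowers, hyo, pow_one]
  obtain ⟨P, hyP⟩ := hyp.exists_le_sylow
  have hyP' : y ∈ (P : Subgroup D) := hyP (Subgroup.mem_zpowers y)
  have hPnt : Nontrivial (P : Subgroup D) := ⟨⟨⟨y, hyP'⟩, 1, fun h => hy1 (congrArg Subtype.val h)⟩⟩
  have hcnt := P.isPGroup'.center_nontrivial
  obtain ⟨z, hz1⟩ := exists_ne (1 : Subgroup.center (P : Subgroup D))
  have hzc : ∀ w : (P : Subgroup D), w * z.1 = z.1 * w := Subgroup.mem_center_iff.1 z.2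
  have hz1' : ((z.1 : (P : Subgroup D)) : D) ≠ 1 := by
    intro h
    apply hz1
    apply Subtype.ext
    apply Subtype.ext
    exact h
  have hzy : ((z.1 : (P : Subgroup D)) : D) * y = y * ((z.1 : (P : Subgroup D)) : D) :=
    (congrArg Subtype.val (hzc ⟨y, hyP'⟩)).symm
  have hzx : ((z.1 : (P : Subgroup D)) : D) * x = x * ((z.1 : (P : Subgroup D)) : D) :=
    (hcen y hy1 hyx.symm _).1 hzy
  have hPA : ∀ w ∈ (P : Subgroup D), w * x = x * w := by
    intro w hw
    exact (hcen _ hz1' hzx.symm w).1 (congrArg Subtype.val (hzc ⟨w, hw⟩))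
  have hPbot : (P : Subgroup D) ≠ ⊥ := by
    intro h
    rw [h, Subgroup.mem_bot] at hyP'
    exact hy1 hyP'
  have hNC : Subgroup.normalizer ((P : Subgroup D) : Set D) ≤
      Subgroup.centralizer ((P : Subgroup D) : Set D) := by
    intro g hg
    rw [Subgroup.mem_centralizer_iff]
    intro w hw
    exact hab g w (hi P hPA hPbot g hg) (hPA w hw)
  have hcompl := MonoidHom.ker_transferSylow_isComplement' P hNC
  rcases (MonoidHom.normal_ker (MonoidHom.transferSylow P hNC)).eq_bot_or_eq_top with h | h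
  · rw [h, Subgroup.isComplement'_bot_left] at hcompl
    obtain ⟨a, b, hne⟩ := hnab
    apply hne
    exact hab b a (hPA b (hcompl ▸ Subgroup.mem_top b)) (hPA a (hcompl ▸ Subgroup.mem_top a))
  · rw [h, Subgroup.isComplement'_top_left] at hcompl
    exact hPbot hcompl

end Cfsg.Agent.Lib.H31EPCA
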