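import Mathlib
import Cfsg.Agent.Lib.H31EPDefs

set_option autoImplicit false

/-! PIECE DGa (60m): basic facts in the situation `Diag H A B`.  All short. -/

namespace Cfsg.Agent.Lib.H31EPDGa

open Cfsg.Agent.Lib.H31EPDefs

variable {G : Type*} [Group G] {H A B : Subgroup G}

/-- `A ⊔ B = A B` since `A` and `B` commute elementwise. -/
theorem mem_sup (hd : Diag H A B) (x : G) : x ∈ A ⊔ B ↔ ∃ a ∈ A, ∃ b ∈ B, x = a * b := by
  constructor
  · intro hx
    let P : Subgroup G :=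
      { carrier := {x | ∃ a ∈ A, ∃ b ∈ B, x = a * b}
        mul_mem' := by
          rintro _ _ ⟨a, ha, b, hb, rfl⟩ ⟨a', ha', b', hb', rfl⟩
          refine ⟨a * a', A.mul_mem ha ha', b * b', B.mul_mem hb hb', ?_⟩
          calc a * b * (a' * b') = a * (b * a') * b' := by group
            _ = a * (a' * b) * b' := by rw [hd.comm a' ha' b hb]
            _ = a * a' * (b * b') := by group
        one_mem' := ⟨1, A.one_mem, 1, B.one_mem, by simp⟩
        inv_mem' := by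
          rintro _ ⟨a, ha, b, hb, rfl⟩
          refine ⟨a⁻¹, A.inv_mem ha, b⁻¹, B.inv_mem hb, ?_⟩
          rw [mul_inv_rev, hd.comm a⁻¹ (A.inv_mem ha) b⁻¹ (B.inv_mem hb)] }
    have hle : A ⊔ B ≤ P := by
      apply sup_le
      · intro a ha
        exact ⟨a, ha, 1, B.one_mem, by simp⟩
      · intro b hb
        exact ⟨1, A.one_mem, b, hb, by simp⟩
    exact hle hx
  · rintro ⟨a, ha, b, hb, rfl⟩
    exact Subgroup.mul_mem _ (Subgroup.mem_sup_left ha) (Subgroup.mem_sup_right hb)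

theorem mem_dD (hd : Diag H A B) (x : G) : x ∈ dD H A B ↔ x ∈ H ∧ ∃ a ∈ A, ∃ b ∈ B, x = a * b := by
  unfold dD
  rw [Subgroup.mem_inf, mem_sup hd]

/-- `a b = a' b'` implies `a = a'`, `b = b'`. -/
theorem uniq (hd : Diag H A B) (a a' b b' : G) (ha : a ∈ A) (ha' : a' ∈ A) (hb : b ∈ B) (hb' : b' ∈ B)
    (h : a * b = a' * b') : a = a' ∧ b = b' := by
  have h1 : a'⁻¹ * a = b' * b⁻¹ := by
    calc a'⁻¹ * a = a'⁻¹ * (a * b) * b⁻¹ := by group
      _ = b' * b⁻¹ := by rw [h]; group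
  have h2 : a'⁻¹ * a = 1 :=
    hd.AB _ (A.mul_mem (A.inv_mem ha') ha) (h1 ▸ B.mul_mem hb' (B.inv_mem hb))
  have h3 : a = a' := (inv_mul_eq_one.1 h2).symm
  refine ⟨h3, ?_⟩
  rw [h3] at h
  exact mul_left_cancel h

/-- `(a b)⁻¹ (a b') = b⁻¹ b' ∈ B ∩ H = 1`. -/
theorem uniqB (hd : Diag H A B) (a b b' : G) (hb : b ∈ B) (hb' : b' ∈ B)
    (h : a * b ∈ H) (h' : a * b' ∈ H) : b = b' := by
  have h1 : b⁻¹ * b' ∈ H := by
    have := H.mul_mem (H.inv_mem h) h'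
    have e : (a * b)⁻¹ * (a * b') = b⁻¹ * b' := by group
    rwa [e] at this
  exact inv_mul_eq_one.1 (hd.BH _ (B.mul_mem (B.inv_mem hb) hb') h1)

/-- `(a b) (a' b)⁻¹ = a a'⁻¹ ∈ A ∩ H = 1`. -/
theorem uniqA (hd : Diag H A B) (a a' b : G) (ha : a ∈ A) (ha' : a' ∈ A)
    (h : a * b ∈ H) (h' : a' * b ∈ H) : a = a' := by
  have h1 : a * a'⁻¹ ∈ H := by
    have := H.mul_mem h (H.inv_mem h')
    have e : (a * b) * (a' * b)⁻¹ = a * a'⁻¹ := by group
    rwa [e] at this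
  exact mul_inv_eq_one.1 (hd.AH _ (A.mul_mem ha (A.inv_mem ha')) h1)

/-- `A ≠ ⊥` -/
theorem A_ne_bot (hd : Diag H A B) : A ≠ ⊥ := by
  intro h
  obtain ⟨a, ha, a', ha', hne⟩ := hd.nab
  rw [h, Subgroup.mem_bot] at ha ha'
  rw [ha, ha'] at hne
  exact hne rfl

/-- for `h ∈ H`: `h ∈ N_H(A)` iff `h` maps `A` into `A`. -/
theorem mem_dL [Finite G] (h : G) (hh : h ∈ H) : h ∈ dL H A ↔ ∀ a ∈ A, h * a * h⁻¹ ∈ A := by
  unfold dL
  rw [Subgroup.mem_inf, Subgroup.mem_normalizer_iff]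
  constructor
  · rintro ⟨-, h2⟩ a ha
    exact (h2 a).1 ha
  · intro h2
    refine ⟨hh, fun n => ⟨h2 n, fun hn => ?_⟩⟩
    let f : A → A := fun a => ⟨h * a.1 * h⁻¹, h2 a.1 a.2⟩
    have hf : Function.Injective f := by
      intro a b hab
      have := congrArg Subtype.val hab
      apply Subtype.ext
      exact mul_left_cancel (mul_right_cancel this)
    obtain ⟨a, ha⟩ := Finite.surjective_of_injective hf ⟨_, hn⟩
    have := congrArg Subtype.val ha
    have h3 : a.1 = n := mul_left_cancel (mul_right_cancel this)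
    exact h3 ▸ a.2

/-- elements of `N_H(A)` normalise `A` and `B`. -/
theorem of_mem_dL (hd : Diag H A B) (h : G) (hh : h ∈ dL H A) :
    (∀ a ∈ A, h * a * h⁻¹ ∈ A) ∧ (∀ b ∈ B, h * b * h⁻¹ ∈ B) := by
  obtain ⟨hH, hN⟩ := Subgroup.mem_inf.1 hh
  rcases hd.act h hH with h1 | h1
  · exact h1
  · exfalso
    apply A_ne_bot hd
    rw [eq_bot_iff]
    intro a ha
    have h2 : h * a * h⁻¹ = 1 := hd.AB _ ((Subgroup.mem_normalizer_iff.1 hN a).1 ha) (h1.1 a ha)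
    rw [Subgroup.mem_bot]
    have : a = h⁻¹ * (h * a * h⁻¹) * h := by group
    rw [this, h2]; group

/-- elements of `H` outside `N_H(A)` swap `A` and `B`. -/
theorem of_not_mem_dL [Finite G] (hd : Diag H A B) (h : G) (hh : h ∈ H) (hn : h ∉ dL H A) :
    (∀ a ∈ A, h * a * h⁻¹ ∈ B) ∧ (∀ b ∈ B, h * b * h⁻¹ ∈ A) := by
  rcases hd.act h hh with h1 | h1
  · exact absurd ((mem_dL h hh).2 h1.1) hn
  · exact h1

end Cfsg.Agent.Lib.H31EPDGa
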