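import Mathlib
import Cfsg.Agent.Lib.H31EPDefs
import Cfsg.Agent.Lib.H31EPDGa

set_option autoImplicit false

/-! PIECE DGb (60m): the easy fields of `TwSet H (dD H A B) (dL H A)`. -/

namespace Cfsg.Agent.Lib.H31EPDGb

open Cfsg.Agent.Lib.H31EPDefs

variable {G : Type*} [Group G] {H A B : Subgroup G}

/-- `x = a b ∈ H` acts on `A` as `a` (`b` commutes with `A`), so it maps `A` into `A`; `DGa.mem_dL`. -/
theorem DL [Finite G] (hd : Diag H A B) : dD H A B ≤ dL H A := by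
  intro x hx
  obtain ⟨hxH, a, ha, b, hb, rfl⟩ := (H31EPDGa.mem_dD hd x).mp hx
  rw [H31EPDGa.mem_dL _ hxH]
  intro c hc
  have h1 : a * b * c * (a * b)⁻¹ = a * c * a⁻¹ := by
    have e1 : b * c = c * b := (hd.comm c hc b hb).symm
    rw [mul_inv_rev, mul_assoc a b c, e1]
    group
  rw [h1]
  exact A.mul_mem (A.mul_mem ha hc) (A.inv_mem ha)

/-- `h (a b) h⁻¹ = (h a h⁻¹)(h b h⁻¹)`; by `Diag.act` it is in `A B` or in `B A = A B`. -/
theorem norm (hd : Diag H A B) : ∀ h ∈ H, ∀ d ∈ dD H A B, h * d * h⁻¹ ∈ dD H A B := by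
  intro h hh d hdD
  obtain ⟨hdH, a, ha, b, hb, rfl⟩ := (H31EPDGa.mem_dD hd d).mp hdD
  rw [H31EPDGa.mem_dD hd]
  refine ⟨H.mul_mem (H.mul_mem hh hdH) (H.inv_mem hh), ?_⟩
  have hconj : h * (a * b) * h⁻¹ = (h * a * h⁻¹) * (h * b * h⁻¹) := by group
  rcases hd.act h hh with ⟨hA, hB⟩ | ⟨hA, hB⟩
  · exact ⟨_, hA a ha, _, hB b hb, hconj⟩
  · refine ⟨_, hB b hb, _, hA a ha, ?_⟩
    rw [hconj, hd.comm _ (hB b hb) _ (hA a ha)]

/-- two swaps compose to an element mapping `A` into `A` (`DGa.of_not_mem_dL`, `DGa.mem_dL`). -/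
theorem L2 [Finite G] (hd : Diag H A B) :
    ∀ a ∈ H, ∀ b ∈ H, a ∉ dL H A → b ∉ dL H A → a * b ∈ dL H A := by
  intro a ha b hb hna hnb
  rw [H31EPDGa.mem_dL _ (H.mul_mem ha hb)]
  intro c hc
  have h1 := (H31EPDGa.of_not_mem_dL hd b hb hnb).1 c hc
  have h2 := (H31EPDGa.of_not_mem_dL hd a ha hna).2 _ h1
  have h3 : a * b * c * (a * b)⁻¹ = a * (b * c * b⁻¹) * a⁻¹ := by group
  rw [h3]
  exact h2

/-- take `a a' ≠ a' a` in `A` and partners `b, b'`; `(a b)(a' b') = (a a')(b b')`, `(a' b')(a b) = (a' a)(b' b)`; `DGa.uniq`. -/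
theorem nab (hd : Diag H A B) : ∃ x ∈ dD H A B, ∃ y ∈ dD H A B, x * y ≠ y * x := by
  obtain ⟨a, ha, a', ha', hne⟩ := hd.nab
  obtain ⟨b, hb, hab⟩ := hd.surj a ha
  obtain ⟨b', hb', hab'⟩ := hd.surj a' ha'
  refine ⟨a * b, (H31EPDGa.mem_dD hd _).mpr ⟨hab, a, ha, b, hb, rfl⟩,
    a' * b', (H31EPDGa.mem_dD hd _).mpr ⟨hab', a', ha', b', hb', rfl⟩, ?_⟩
  intro h
  apply hne
  have e1 : a * b * (a' * b') = (a * a') * (b * b') := by
    rw [mul_assoc, ← mul_assoc b a' b', ← hd.comm a' ha' b hb, mul_assoc, mul_assoc]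
  have e2 : a' * b' * (a * b) = (a' * a) * (b' * b) := by
    rw [mul_assoc, ← mul_assoc b' a b, ← hd.comm a ha b' hb', mul_assoc, mul_assoc]
  rw [e1, e2] at h
  exact (H31EPDGa.uniq hd _ _ _ _ (A.mul_mem ha ha') (A.mul_mem ha' ha) (B.mul_mem hb hb')
    (B.mul_mem hb' hb) h).1

end Cfsg.Agent.Lib.H31EPDGb
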