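import Mathlib
import Cfsg.Agent.Lib.H31EPDefs
import Cfsg.Agent.Lib.H31EPDGa

set_option autoImplicit false

namespace Cfsg.Agent.Lib.H31EPDGc

open Cfsg.Agent.Lib.H31EPDefs

variable {G : Type*} [Group G] {H A B : Subgroup G}

/-- PIECE DGc (60m).  `D = H ∩ A B` is simple (it is isomorphic to `A` by the projection).
Let `S ≤ D` be `D`-invariant.  `S_A = {a ∈ A | ∃ b ∈ B, a b ∈ S}` is a subgroup of `A` (`(a b)(a' b') = (a a')(b b')`, `(a b)⁻¹ = a⁻¹ b⁻¹`), and it is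
`A`-invariant: for `c ∈ A` take its partner `e ∈ B`, `c e ∈ D`; `(c e)(a b)(c e)⁻¹ = (c a c⁻¹)(e b e⁻¹) ∈ S`.  By `Diag.simp`: `S_A = ⊥` or `S_A = A`.
If `S_A = ⊥`: each `x = a b ∈ S` has `a = 1`, so `x = b ∈ B ∩ H = 1`: `S = ⊥`.
If `S_A = A`: let `x = a b ∈ D`; there is `b'` with `a b' ∈ S ≤ H`; `DGa.uniqB` gives `b = b'`: `x ∈ S`. -/
theorem simp (hd : Diag H A B) :
    ∀ S : Subgroup G, S ≤ dD H A B → Inv (dD H A B) S → S = ⊥ ∨ S = dD H A B := by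
  intro S hS hinv
  have hSH : ∀ x ∈ S, x ∈ H := fun x hx => ((H31EPDGa.mem_dD hd x).mp (hS hx)).1
  let SA : Subgroup G :=
    { carrier := {a | a ∈ A ∧ ∃ b ∈ B, a * b ∈ S}
      one_mem' := ⟨A.one_mem, 1, B.one_mem, by simpa using S.one_mem⟩
      mul_mem' := by
        rintro a a' ⟨ha, b, hb, hab⟩ ⟨ha', b', hb', hab'⟩
        refine ⟨A.mul_mem ha ha', b * b', B.mul_mem hb hb', ?_⟩
        have : a * a' * (b * b') = (a * b) * (a' * b') := by
          rw [mul_assoc, ← mul_assoc a' b b', hd.comm a' ha' b hb, mul_assoc, mul_assoc]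
        rw [this]
        exact S.mul_mem hab hab'
      inv_mem' := by
        rintro a ⟨ha, b, hb, hab⟩
        refine ⟨A.inv_mem ha, b⁻¹, B.inv_mem hb, ?_⟩
        have : a⁻¹ * b⁻¹ = (a * b)⁻¹ := by rw [hd.comm a ha b hb, mul_inv_rev]
        rw [this]
        exact S.inv_mem hab }
  have hmem : ∀ a, a ∈ SA ↔ a ∈ A ∧ ∃ b ∈ B, a * b ∈ S := fun a => Iff.rfl
  have hSAle : SA ≤ A := fun a ha => ha.1
  have hSAinv : Inv A SA := by
    intro c hc a ha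
    obtain ⟨haA, b, hb, hab⟩ := ha
    obtain ⟨e, he, hce⟩ := hd.surj c hc
    have hceD : c * e ∈ dD H A B := (H31EPDGa.mem_dD hd _).mpr ⟨hce, c, hc, e, he, rfl⟩
    refine ⟨A.mul_mem (A.mul_mem hc haA) (A.inv_mem hc), e * b * e⁻¹,
      B.mul_mem (B.mul_mem he hb) (B.inv_mem he), ?_⟩
    have h1 := hinv _ hceD _ hab
    have h2 : c * e * (a * b) * (c * e)⁻¹ = c * a * c⁻¹ * (e * b * e⁻¹) := by
      have e1 : e * a = a * e := (hd.comm a haA e he).symm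
      have e2 : e * c⁻¹ = c⁻¹ * e := (hd.comm _ (A.inv_mem hc) e he).symm
      have e3 : b * c⁻¹ = c⁻¹ * b := (hd.comm _ (A.inv_mem hc) b hb).symm
      have e4 : e⁻¹ * c⁻¹ = c⁻¹ * e⁻¹ := (hd.comm _ (A.inv_mem hc) _ (B.inv_mem he)).symm
      calc c * e * (a * b) * (c * e)⁻¹ = c * (e * a) * b * (e⁻¹ * c⁻¹) := by
            rw [mul_inv_rev]; simp only [mul_assoc]
        _ = c * a * e * (b * c⁻¹) * e⁻¹ := by rw [e1, e4]; simp only [mul_assoc]
        _ = c * a * (e * c⁻¹) * b * e⁻¹ := by rw [e3]; simp only [mul_assoc]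
        _ = c * a * c⁻¹ * (e * b * e⁻¹) := by rw [e2]; simp only [mul_assoc]
    rw [h2] at h1
    exact h1
  rcases hd.simp SA hSAle hSAinv with h | h
  · left
    rw [eq_bot_iff]
    intro x hx
    obtain ⟨hxH, a, ha, b, hb, rfl⟩ := (H31EPDGa.mem_dD hd x).mp (hS hx)
    have ha1 : a ∈ SA := ⟨ha, b, hb, hx⟩
    rw [h, Subgroup.mem_bot] at ha1
    subst ha1
    rw [one_mul] at hxH ⊢
    rw [Subgroup.mem_bot]
    exact hd.BH b hb hxH
  · right
    apply le_antisymm hS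
    intro x hx
    obtain ⟨hxH, a, ha, b, hb, rfl⟩ := (H31EPDGa.mem_dD hd x).mp hx
    have ha1 : a ∈ SA := by rw [h]; exact ha
    obtain ⟨-, b', hb', hab'⟩ := ha1
    have := H31EPDGa.uniqB hd a b b' hb hb' hxH (hSH _ hab')
    rw [this]
    exact hab'

end Cfsg.Agent.Lib.H31EPDGc
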