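import Mathlib
import Cfsg.Agent.Lib.H31EPDefs
import Cfsg.Agent.Lib.H31EPDGa

set_option autoImplicit false

namespace Cfsg.Agent.Lib.H31EPDGd

open Cfsg.Agent.Lib.H31EPDefs

variable {G : Type*} [Group G] {H A B : Subgroup G}

/-- PIECE DGd (75m).  For `d = t u ∈ H` (`t ∈ A`, `u ∈ B`): the stabiliser `stab H t` is the twisted centraliser of `d`.  Let `h ∈ H`; use `mem_stab'`: `h ∈ stab H t ↔ t⁻¹ (h t h⁻¹) ∈ H`.
Case `h ∈ dL H A` (`DGa.of_mem_dL`): `h t h⁻¹ ∈ A`, `h u h⁻¹ ∈ B`.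
 (→) `t⁻¹ (h t h⁻¹) ∈ A ∩ H = 1`, so `h t h⁻¹ = t`; `h d h⁻¹ = t (h u h⁻¹) ∈ H` and `t u ∈ H`: `DGa.uniqB` gives `h u h⁻¹ = u`, so `h d h⁻¹ = d`.
 (←) `(h t h⁻¹)(h u h⁻¹) = t u`, `DGa.uniq`: `h t h⁻¹ = t`; `t⁻¹ t = 1 ∈ H`.
Case `h ∉ dL H A` (`DGa.of_not_mem_dL`): `h t h⁻¹ ∈ B`, `h u h⁻¹ ∈ A`; note `d⁻¹ = t⁻¹ u⁻¹ ∈ H`.
 (→) `t⁻¹ (h t h⁻¹) ∈ H` and `t⁻¹ u⁻¹ ∈ H`: `DGa.uniqB`: `h t h⁻¹ = u⁻¹`.  `h d h⁻¹ = (h u h⁻¹) u⁻¹ ∈ H` (commute) and `t⁻¹ u⁻¹ ∈ H`: `DGa.uniqA`: `h u h⁻¹ = t⁻¹`.  So `h d h⁻¹ = d⁻¹`.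
 (←) `(h u h⁻¹)(h t h⁻¹) = h d h⁻¹ = d⁻¹ = t⁻¹ u⁻¹`, `DGa.uniq`: `h t h⁻¹ = u⁻¹`, so `t⁻¹ (h t h⁻¹) = d⁻¹ ∈ H`. -/
theorem stab_iff [Finite G] (hd : Diag H A B) (t u : G) (ht : t ∈ A) (hu : u ∈ B) (hH : t * u ∈ H) (h : G) :
    h ∈ stab H t ↔ Tw H (dL H A) (t * u) h := by
  by_cases hh : h ∈ H
  swap
  · constructor
    · intro h1
      exact absurd (stab_le H t h1) hh
    · intro h1
      exact absurd h1.1 hh
  rw [mem_stab' hh]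
  have hconj : h * (t * u) * h⁻¹ = (h * t * h⁻¹) * (h * u * h⁻¹) := by group
  have hcH : h * (t * u) * h⁻¹ ∈ H := H.mul_mem (H.mul_mem hh hH) (H.inv_mem hh)
  have hinv : (t * u)⁻¹ = t⁻¹ * u⁻¹ := by rw [hd.comm t ht u hu, mul_inv_rev]
  have hinvH : t⁻¹ * u⁻¹ ∈ H := hinv ▸ H.inv_mem hH
  by_cases hL : h ∈ dL H A
  · obtain ⟨hA, hB⟩ := H31EPDGa.of_mem_dL hd h hL
    constructor
    · intro h1
      have h2 : t⁻¹ * (h * t * h⁻¹) = 1 := hd.AH _ (A.mul_mem (A.inv_mem ht) (hA t ht)) h1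
      have h3 : h * t * h⁻¹ = t := by
        rw [inv_mul_eq_one] at h2
        exact h2.symm
      have h4 : h * u * h⁻¹ = u := by
        apply H31EPDGa.uniqB hd t _ _ (hB u hu) hu _ hH
        have : t * (h * u * h⁻¹) = h * (t * u) * h⁻¹ := by rw [hconj, h3]
        rw [this]
        exact hcH
      refine ⟨hh, Or.inl ⟨hL, ?_⟩⟩
      rw [hconj, h3, h4]
    · rintro ⟨-, ⟨-, h1⟩ | ⟨h1, -⟩⟩
      · rw [hconj] at h1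
        have := (H31EPDGa.uniq hd _ _ _ _ (hA t ht) ht (hB u hu) hu h1).1
        rw [this]
        simp [H.one_mem]
      · exact absurd hL h1
  · obtain ⟨hA, hB⟩ := H31EPDGa.of_not_mem_dL hd h hh hL
    constructor
    · intro h1
      have h3 : h * t * h⁻¹ = u⁻¹ :=
        H31EPDGa.uniqB hd t⁻¹ _ _ (hA t ht) (B.inv_mem hu) h1 hinvH
      have h4 : h * u * h⁻¹ = t⁻¹ := by
        apply H31EPDGa.uniqA hd _ _ u⁻¹ (hB u hu) (A.inv_mem ht) _ hinvH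
        have : h * u * h⁻¹ * u⁻¹ = h * (t * u) * h⁻¹ := by
          rw [hconj, h3, hd.comm _ (hB u hu) _ (B.inv_mem hu)]
        rw [this]
        exact hcH
      refine ⟨hh, Or.inr ⟨hL, ?_⟩⟩
      rw [hconj, h3, h4, hinv, hd.comm _ (A.inv_mem ht) _ (B.inv_mem hu)]
    · rintro ⟨-, ⟨h1, -⟩ | ⟨-, h1⟩⟩
      · exact absurd h1 hL
      · rw [hconj, hinv, ← hd.comm _ (hB u hu) _ (hA t ht)] at h1
        have := (H31EPDGa.uniq hd _ _ _ _ (hB u hu) (A.inv_mem ht) (hA t ht) (B.inv_mem hu) h1).2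
        rw [this]
        exact hinvH

/-- the field `max` of `TwSet`: write `d = t u` (`DGa.mem_dD`), apply `EP` with `x = t` and `stab_iff`. -/
theorem max [Finite G] (hep : EP H) (hd : Diag H A B) :
    ∀ d ∈ dD H A B, d ≠ 1 → ∀ X : Subgroup G, (∀ h, Tw H (dL H A) d h → h ∈ X) → X ≤ H →
      (∀ x ∈ X, Tw H (dL H A) d x) ∨ X = H := by
  intro d hdD hd1 X hX hXH
  obtain ⟨hdH, t, ht, u, hu, rfl⟩ := (H31EPDGa.mem_dD hd d).mp hdD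
  have h1 : stab H t ≤ X := fun h hh => hX h ((stab_iff hd t u ht hu hdH h).mp hh)
  rcases hep t X h1 hXH with h2 | h2
  · left
    intro x hx
    rw [h2] at hx
    exact (stab_iff hd t u ht hu hdH x).mp hx
  · right
    exact h2

end Cfsg.Agent.Lib.H31EPDGd
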