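import Mathlib
import Cfsg.Agent.Lib.H31EPDefs

set_option autoImplicit false

namespace Cfsg.Agent.Lib.H31EPSimple

open Cfsg.Agent.Lib.H31EPDefs

variable {G : Type*} [Group G]

/-- PIECE Simple (30m).  From the elementwise form of simplicity to `IsSimpleGroup ↥D`.
`Nontrivial ↥D` from `hne`.  For a normal subgroup `K` of `↥D`, `S = K.map D.subtype ≤ D` is `D`-invariant; `S = ⊥ → K = ⊥` (`Subgroup.map_eq_bot_iff_of_injective`),
`S = D → K = ⊤`. -/
theorem simple_of (D : Subgroup G) (hne : D ≠ ⊥)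
    (hsimp : ∀ S : Subgroup G, S ≤ D → Inv D S → S = ⊥ ∨ S = D) : IsSimpleGroup ↥D := by
  haveI : Nontrivial ↥D := (Subgroup.nontrivial_iff_ne_bot D).mpr hne
  refine ⟨fun K hK => ?_⟩
  have hle : K.map D.subtype ≤ D := by
    rintro _ ⟨x, -, rfl⟩
    exact x.2
  have hinv : Inv D (K.map D.subtype) := by
    rintro n hn _ ⟨x, hx, rfl⟩
    refine ⟨⟨n, hn⟩ * x * ⟨n, hn⟩⁻¹, hK.conj_mem x hx ⟨n, hn⟩, ?_⟩
    simp
  rcases hsimp _ hle hinv with h | h
  · left
    exact (Subgroup.map_eq_bot_iff_of_injective K D.subtype_injective).mp h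
  · right
    rw [Subgroup.eq_top_iff']
    intro x
    have hx : (x : G) ∈ K.map D.subtype := by rw [h]; exact x.2
    obtain ⟨y, hy, hyx⟩ := hx
    have : y = x := Subtype.ext hyx
    rwa [← this]

end Cfsg.Agent.Lib.H31EPSimple
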