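import Mathlib
import Cfsg.Agent.Lib.H31EPDefs
import Cfsg.Agent.Lib.Helper63Prim2

set_option autoImplicit false

namespace Cfsg.Agent.Lib.H31EPStruct

open Cfsg.Agent.Lib.H31EPDefs

variable {G : Type*} [Group G]

/-- PIECE Struct (45m).  Structure of a non-abelian, non-simple minimal normal subgroup.
COPY the proof of `Cfsg.Agent.Lib.Helper63Prim2.structure_min_normal` (same hypotheses; it takes `T` minimal
among the nontrivial `N`-invariant subgroups of `N` inside `S₀`, and `M = N ⊓ centralizer T`) and add the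
missing fields:
* `simp`: a subgroup `S ≤ T` invariant under `T` is invariant under `N = T M` (`M` centralises `T`), so
  `S = ⊥` or `S = T` by minimality of `T`;
* `nab`: `T ⊓ centralizer T = ⊥` and `T ≠ ⊥`;
* `invM`: `M = N ⊓ centralizer T` and `T` is `N`-invariant (use `n⁻¹`);
* `gen`: if `X` contains all conjugates of `T`, then the normal closure of `T` (normal, `≠ ⊥`, `≤ N`) equals `N`
  by `hmin` and is `≤ X` (`Subgroup.normalClosure_le_normal` does not apply as `X` is not normal: use
  `Subgroup.normalClosure = closure (conjugatesOfSet T)` and `Subgroup.closure_le`). -/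
theorem exists_TM [Finite G] (N : Subgroup G) (hN : N.Normal)
    (hmin : ∀ M : Subgroup G, M.Normal → M ≠ ⊥ → M ≤ N → M = N)
    (hC : N ⊓ Subgroup.centralizer (N : Set G) = ⊥)
    (S₀ : Subgroup G) (hS₀ : S₀ ≤ N) (hS₀inv : Inv N S₀) (hS₀1 : S₀ ≠ ⊥) (hS₀N : S₀ ≠ N) :
    ∃ T M : Subgroup G, TM N T M := by
  classical
  obtain ⟨T, ⟨hT1, hT2, hT3⟩, hTS, hTmin⟩ := Cfsg.Agent.Lib.Helper63Prim.exists_minimal_subgroup
    (fun S : Subgroup G => S ≠ ⊥ ∧ S ≤ N ∧ Inv N S) S₀ ⟨hS₀1, hS₀, hS₀inv⟩
  have hTN : T ≠ N := by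
    rintro rfl
    exact hS₀N (le_antisymm hS₀ hTS)
  let cj : G → Subgroup G := fun g => T.map (MulAut.conj g).toMonoidHom
  have mem_cj : ∀ g x, x ∈ cj g ↔ ∃ t ∈ T, g * t * g⁻¹ = x := by
    intro g x
    simp only [cj, Subgroup.mem_map, MulEquiv.coe_toMonoidHom, MulAut.conj_apply]
  have cj_card : ∀ g, Nat.card (cj g) = Nat.card T := fun g =>
    Subgroup.card_map_of_injective (MulAut.conj g).injective
  have cj_le : ∀ g, cj g ≤ N := by
    intro g x hx
    obtain ⟨t, ht, rfl⟩ := (mem_cj g x).mp hx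
    exact hN.conj_mem t (hT2 ht) g
  have cj_inv : ∀ g, Inv N (cj g) := by
    intro g n hn x hx
    obtain ⟨t, ht, rfl⟩ := (mem_cj g x).mp hx
    rw [mem_cj]
    refine ⟨(g⁻¹ * n * g) * t * (g⁻¹ * n * g)⁻¹, hT3 _ ?_ t ht, by group⟩
    have := hN.conj_mem n hn g⁻¹
    simpa using this
  set M : Subgroup G := N ⊓ Subgroup.centralizer (T : Set G) with hM
  have hMcomm : ∀ m ∈ M, ∀ t ∈ T, t * m = m * t := by
    intro m hm t ht
    exact (Subgroup.mem_centralizer_iff.mp (Subgroup.mem_inf.mp hm).2) t ht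
  have cj_alt : ∀ g, cj g = T ∨ cj g ≤ M := by
    intro g
    by_cases hbot : cj g ⊓ T = ⊥
    · right
      intro a ha
      refine Subgroup.mem_inf.mpr ⟨cj_le g ha, ?_⟩
      rw [Subgroup.mem_centralizer_iff]
      intro b hb
      have h1 : a * b * a⁻¹ * b⁻¹ ∈ cj g ⊓ T := by
        refine Subgroup.mem_inf.mpr ⟨?_, ?_⟩
        · have h2 := cj_inv g b (hT2 hb) a⁻¹ ((cj g).inv_mem ha)
          have h3 := (cj g).mul_mem ha h2
          have e : a * (b * a⁻¹ * b⁻¹) = a * b * a⁻¹ * b⁻¹ := by group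
          rwa [e] at h3
        · exact T.mul_mem (hT3 a (cj_le g ha) b hb) (T.inv_mem hb)
      rw [hbot, Subgroup.mem_bot] at h1
      have h4 := congrArg (fun z => z * b * a) h1
      simp only [one_mul] at h4
      rw [← h4]; group
    · left
      have h1 : cj g ⊓ T = T := by
        apply hTmin _ ⟨hbot, inf_le_right.trans hT2, ?_⟩ inf_le_right
        intro n hn s hs
        exact Subgroup.mem_inf.mpr ⟨cj_inv g n hn s (Subgroup.mem_inf.mp hs).1,
          hT3 n hn s (Subgroup.mem_inf.mp hs).2⟩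
      have h2 : T ≤ cj g := by rw [← h1]; exact inf_le_left
      exact (Subgroup.eq_of_le_of_card_ge h2 (cj_card g).le).symm
  have hNTM : N ≤ T ⊔ M := by
    have h1 : Subgroup.normalClosure (T : Set G) = N := by
      apply hmin _ Subgroup.normalClosure_normal
      · intro h
        apply hT1
        rw [eq_bot_iff, ← h]
        exact Subgroup.le_normalClosure
      · exact Subgroup.normalClosure_le_normal hT2
    rw [← h1, Subgroup.normalClosure, Subgroup.closure_le]
    intro x hx
    obtain ⟨t, ht, htx⟩ := Group.mem_conjugatesOfSet_iff.mp hx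
    obtain ⟨c, rfl⟩ := isConj_iff.mp htx
    have h2 : c * t * c⁻¹ ∈ cj c := (mem_cj c _).mpr ⟨t, ht, rfl⟩
    rcases cj_alt c with h | h
    · rw [h] at h2
      exact (le_sup_left : T ≤ T ⊔ M) h2
    · exact (le_sup_right : M ≤ T ⊔ M) (h h2)
  have hMnorm : M ≤ Subgroup.normalizer (T : Set G) := by
    intro m hm
    rw [Subgroup.mem_normalizer_iff]
    intro h
    constructor
    · intro hh
      exact hT3 m (Subgroup.mem_inf.mp hm).1 h hh
    · intro hh
      have := hT3 m⁻¹ (N.inv_mem (Subgroup.mem_inf.mp hm).1) _ hh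
      simpa [mul_assoc] using this
  have hdec : ∀ n ∈ N, ∃ t ∈ T, ∃ m ∈ M, n = t * m := by
    intro n hn
    have h1 : n ∈ ((T ⊔ M : Subgroup G) : Set G) := hNTM hn
    rw [Subgroup.coe_mul_of_right_le_normalizer_left T M hMnorm] at h1
    obtain ⟨t, ht, m, hm, rfl⟩ := h1
    exact ⟨t, ht, m, hm, rfl⟩
  set Z : Subgroup G := T ⊓ Subgroup.centralizer (T : Set G) with hZdef
  have hZ : Z = ⊥ := by
    by_contra hZ1
    have h1 : Z = T := by
      apply hTmin _ ⟨hZ1, inf_le_left.trans hT2, ?_⟩ inf_le_left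
      intro n hn z hz
      refine Subgroup.mem_inf.mpr ⟨hT3 n hn z (Subgroup.mem_inf.mp hz).1, ?_⟩
      rw [Subgroup.mem_centralizer_iff]
      intro t ht
      have h2 : n⁻¹ * t * n ∈ T := by
        have := hT3 n⁻¹ (N.inv_mem hn) t ht
        simpa using this
      have h3 := (Subgroup.mem_centralizer_iff.mp (Subgroup.mem_inf.mp hz).2) _ h2
      calc t * (n * z * n⁻¹) = n * ((n⁻¹ * t * n) * z) * n⁻¹ := by group
        _ = n * (z * (n⁻¹ * t * n)) * n⁻¹ := by rw [h3]
        _ = n * z * n⁻¹ * t := by group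
    have h2 : T ≤ Subgroup.centralizer (T : Set G) := by
      rw [← h1]; exact (inf_le_right : Z ≤ _).trans (by rw [h1])
    have h3 : T ≤ N ⊓ Subgroup.centralizer (N : Set G) := by
      intro s hs
      refine Subgroup.mem_inf.mpr ⟨hT2 hs, ?_⟩
      rw [Subgroup.mem_centralizer_iff]
      intro n hn
      obtain ⟨t, ht, m, hm, rfl⟩ := hdec n hn
      have e1 : t * s = s * t := (Subgroup.mem_centralizer_iff.mp (h2 hs)) t ht
      have e2 : s * m = m * s := hMcomm m hm s hs
      calc t * m * s = t * (m * s) := by group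
        _ = t * (s * m) := by rw [e2]
        _ = (t * s) * m := by group
        _ = s * t * m := by rw [e1]
        _ = s * (t * m) := by group
    rw [hC] at h3
    exact hT1 (eq_bot_iff.mpr h3)
  have hTM : ∀ x, x ∈ T → x ∈ M → x = 1 := by
    intro x hxT hxM
    have : x ∈ Z := Subgroup.mem_inf.mpr ⟨hxT, (Subgroup.mem_inf.mp hxM).2⟩
    rw [hZ, Subgroup.mem_bot] at this
    exact this
  obtain ⟨g, hg⟩ : ∃ g, cj g ≤ M := by
    by_contra hcon
    push Not at hcon
    have hall : ∀ g, cj g = T := fun g => (cj_alt g).resolve_right (hcon g)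
    apply hTN
    apply hmin T _ hT1 hT2
    refine ⟨fun t ht g => ?_⟩
    rw [← hall g]
    exact (mem_cj g _).mpr ⟨t, ht, rfl⟩
  refine ⟨T, M, ?_⟩
  exact
  { T_le := hT2
    M_le := inf_le_left
    invT := hT3
    invM := by
      intro n hn m hm
      refine Subgroup.mem_inf.mpr
        ⟨N.mul_mem (N.mul_mem hn (Subgroup.mem_inf.mp hm).1) (N.inv_mem hn), ?_⟩
      rw [Subgroup.mem_centralizer_iff]
      intro t ht
      have h2 : n⁻¹ * t * n ∈ T := by
        have := hT3 n⁻¹ (N.inv_mem hn) t ht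
        simpa using this
      have h3 := hMcomm m hm _ h2
      calc t * (n * m * n⁻¹) = n * ((n⁻¹ * t * n) * m) * n⁻¹ := by group
        _ = n * (m * (n⁻¹ * t * n)) * n⁻¹ := by rw [h3]
        _ = n * m * n⁻¹ * t := by group
    comm := fun t ht m hm => hMcomm m hm t ht
    prod := hdec
    disj := hTM
    simp := by
      intro S hS hSinv
      by_cases hS1 : S = ⊥
      · left
        exact hS1
      · right
        apply hTmin S ⟨hS1, hS.trans hT2, ?_⟩ hS
        intro n hn s hs
        obtain ⟨t, ht, m, hm, rfl⟩ := hdec n hn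
        have e : m * s = s * m := (hMcomm m hm s (hS hs)).symm
        have e2 : t * m * s * (t * m)⁻¹ = t * s * t⁻¹ := by
          rw [mul_inv_rev, mul_assoc t m s, e]
          group
        rw [e2]
        exact hSinv t ht s hs
    nab := by
      by_contra hcon
      push Not at hcon
      apply hT1
      rw [eq_bot_iff, ← hZ]
      intro t ht
      refine Subgroup.mem_inf.mpr ⟨ht, ?_⟩
      rw [Subgroup.mem_centralizer_iff]
      intro s hs
      exact hcon s hs t ht
    alt := by
      intro g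
      rcases cj_alt g with h | h
      · left
        intro t ht
        rw [← h]
        exact (mem_cj g _).mpr ⟨t, ht, rfl⟩
      · right
        intro t ht
        exact h ((mem_cj g _).mpr ⟨t, ht, rfl⟩)
    moved := ⟨g, fun t ht => hg ((mem_cj g _).mpr ⟨t, ht, rfl⟩)⟩
    gen := by
      intro X hX
      have h1 : Subgroup.normalClosure (T : Set G) = N := by
        apply hmin _ Subgroup.normalClosure_normal
        · intro h
          apply hT1
          rw [eq_bot_iff, ← h]
          exact Subgroup.le_normalClosure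
        · exact Subgroup.normalClosure_le_normal hT2
      rw [← h1, Subgroup.normalClosure, Subgroup.closure_le]
      intro x hx
      obtain ⟨t, ht, htx⟩ := Group.mem_conjugatesOfSet_iff.mp hx
      obtain ⟨c, rfl⟩ := isConj_iff.mp htx
      exact hX c t ht }

end Cfsg.Agent.Lib.H31EPStruct
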