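import Mathlib
import Cfsg.Agent.Lib.H31EPDefs

set_option autoImplicit false

namespace Cfsg.Agent.Lib.H31EPTrans

open Cfsg.Agent.Lib.H31EPDefs

/-- PIECE Trans (90m).  From the permutation action to the abstract setting, `H = stabilizer G α`.
* `IsCoatom H`: `MulAction.isCoatom_stabilizer_iff_preprimitive` (needs `Nontrivial Ω` from `hΩ`; `IsPreprimitive` gives `IsPretransitive`).
* core-free: a normal `K ≤ stabilizer G α` fixes every point `g • α` (`g⁻¹ k g ∈ K` fixes `α`), so acts trivially; faithful.
* `EP H`: let `x : G`, `ω = x • α`.  `stabilizer G ω = (stabilizer G α).map (conj x)` (`MulAction.stabilizer_smul_eq_stabilizer_map_conj`), so `stab H x = H ⊓ stabilizer G ω`.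
  `hep α ω` says `↥H` is preprimitive on `O = orbit ↥H ω`.  The stabiliser in `↥H` of the point `⟨ω, _⟩ : O` is `(stabilizer G ω).subgroupOf H`.
  If `O` is a subsingleton, `H` fixes `ω`, `stab H x = H` and `X = H` by antisymmetry.  Otherwise `O` is nontrivial and this stabiliser is a coatom of `Subgroup ↥H`
  (`MulAction.isCoatom_stabilizer_iff_preprimitive`); for `stab H x ≤ X ≤ H`, `X.subgroupOf H` contains it, so it is equal to it or `⊤`
  (`IsCoatom.le_iff` / `eq_or_eq_top`), i.e. `X = stab H x` or `X = H` (`Subgroup.subgroupOf_eq_top`, `Subgroup.subgroupOf_inj`-type lemmas, or elementwise). -/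
theorem trans {G : Type*} [Group G] [Finite G] {Ω : Type*} [Fintype Ω] [MulAction G Ω] [FaithfulSMul G Ω]
    (hΩ : 2 ≤ Fintype.card Ω) (hprim : MulAction.IsPreprimitive G Ω)
    (hep : ∀ (α : Ω) (ω : Ω), MulAction.IsPreprimitive (MulAction.stabilizer G α)
      (MulAction.orbit (MulAction.stabilizer G α) ω)) (α : Ω) :
    IsCoatom (MulAction.stabilizer G α) ∧
    (∀ K : Subgroup G, K.Normal → K ≤ MulAction.stabilizer G α → K = ⊥) ∧
    EP (MulAction.stabilizer G α) := by
  have hnt : Nontrivial Ω := Fintype.one_lt_card_iff_nontrivial.1 (by omega)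
  have htr : MulAction.IsPretransitive G Ω := hprim.toIsPretransitive
  refine ⟨(MulAction.isCoatom_stabilizer_iff_preprimitive G α).2 hprim, ?_, ?_⟩
  · intro K hKn hK
    rw [eq_bot_iff]
    intro k hk
    rw [Subgroup.mem_bot]
    apply FaithfulSMul.eq_of_smul_eq_smul (α := Ω)
    intro ω
    obtain ⟨g, rfl⟩ := MulAction.exists_smul_eq G α ω
    have h1 : g⁻¹ * k * g⁻¹⁻¹ ∈ K := hKn.conj_mem k hk g⁻¹
    have h2 := MulAction.mem_stabilizer_iff.1 (hK h1)
    rw [inv_inv, mul_smul, mul_smul, inv_smul_eq_iff] at h2
    rw [h2, one_smul]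
  · intro x X hX1 hX2
    have hmem : ∀ h : G, h ∈ stab (MulAction.stabilizer G α) x ↔
        h ∈ MulAction.stabilizer G α ∧ h • (x • α) = x • α := by
      intro h
      unfold stab
      rw [← MulAction.stabilizer_smul_eq_stabilizer_map_conj, Subgroup.mem_inf,
        MulAction.mem_stabilizer_iff (a := x • α)]
    have hpp := hep α (x • α)
    have htr' : MulAction.IsPretransitive (MulAction.stabilizer G α)
      (MulAction.orbit (MulAction.stabilizer G α) (x • α)) := hpp.toIsPretransitive
    set o : MulAction.orbit (MulAction.stabilizer G α) (x • α) :=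
      ⟨x • α, MulAction.mem_orbit_self _⟩ with ho
    have hfix : ∀ h : MulAction.stabilizer G α, h • o = o ↔ (h : G) • (x • α) = x • α := by
      intro h
      rw [Subtype.ext_iff]
      rfl
    rcases subsingleton_or_nontrivial (MulAction.orbit (MulAction.stabilizer G α) (x • α)) with
      hss | hnt'
    · right
      apply le_antisymm hX2
      refine le_trans ?_ hX1
      intro h hh
      rw [hmem]
      exact ⟨hh, (hfix ⟨h, hh⟩).1 (Subsingleton.elim _ _)⟩
    · have hco : IsCoatom (MulAction.stabilizer (MulAction.stabilizer G α) o) :=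
        (MulAction.isCoatom_stabilizer_iff_preprimitive _ o).2 hpp
      have hle : MulAction.stabilizer (MulAction.stabilizer G α) o ≤
          X.subgroupOf (MulAction.stabilizer G α) := by
        intro h hh
        rw [Subgroup.mem_subgroupOf]
        apply hX1
        rw [hmem]
        exact ⟨h.2, (hfix h).1 (MulAction.mem_stabilizer_iff.1 hh)⟩
      rcases hco.le_iff.1 hle with h | h
      · right
        exact le_antisymm hX2 (Subgroup.subgroupOf_eq_top.1 h)
      · left
        apply le_antisymm _ hX1
        intro y hy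
        rw [hmem]
        refine ⟨hX2 hy, ?_⟩
        have h1 : (⟨y, hX2 hy⟩ : MulAction.stabilizer G α) ∈
            X.subgroupOf (MulAction.stabilizer G α) := Subgroup.mem_subgroupOf.2 hy
        rw [h] at h1
        exact (hfix _).1 (MulAction.mem_stabilizer_iff.1 h1)

end Cfsg.Agent.Lib.H31EPTrans
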