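import Mathlib
import Cfsg.Agent.Lib.H31EPDefs

set_option autoImplicit false

/-! PIECE Tw1 (60m): basic facts on the twisted centralisers `{h | Tw H L d h}`. -/

namespace Cfsg.Agent.Lib.H31EPTw1

open Cfsg.Agent.Lib.H31EPDefs

variable {G : Type*} [Group G] {H D L : Subgroup G}

theorem conj_inv' (a d : G) : a * d⁻¹ * a⁻¹ = (a * d * a⁻¹)⁻¹ := by group

theorem conj_mul' (a b d : G) : (a * b) * d * (a * b)⁻¹ = a * (b * d * b⁻¹) * a⁻¹ := by group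

/-- The twisted centraliser is a subgroup. -/
theorem exists_twSub (hs : TwSet H D L) (d : G) : ∃ A : Subgroup G, ∀ h, h ∈ A ↔ Tw H L d h := by
  refine ⟨{ carrier := {h | Tw H L d h}, mul_mem' := ?_, one_mem' := ?_, inv_mem' := ?_ },
    fun h => Iff.rfl⟩
  · rintro a b ⟨haH, ha⟩ ⟨hbH, hb⟩
    refine ⟨H.mul_mem haH hbH, ?_⟩
    rcases ha with ⟨haL, ha⟩ | ⟨haL, ha⟩ <;> rcases hb with ⟨hbL, hb⟩ | ⟨hbL, hb⟩
    · left
      exact ⟨L.mul_mem haL hbL, by rw [conj_mul', hb, ha]⟩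
    · right
      refine ⟨fun h => hbL ?_, by rw [conj_mul', hb, conj_inv', ha]⟩
      have := L.mul_mem (L.inv_mem haL) h
      rwa [inv_mul_cancel_left] at this
    · right
      refine ⟨fun h => haL ?_, by rw [conj_mul', hb, ha]⟩
      have := L.mul_mem h (L.inv_mem hbL)
      rwa [mul_inv_cancel_right] at this
    · left
      exact ⟨hs.L2 a haH b hbH haL hbL, by rw [conj_mul', hb, conj_inv', ha, inv_inv]⟩
  · exact ⟨H.one_mem, Or.inl ⟨L.one_mem, by simp⟩⟩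
  · rintro a ⟨haH, ha⟩
    refine ⟨H.inv_mem haH, ?_⟩
    rcases ha with ⟨haL, ha⟩ | ⟨haL, ha⟩
    · left
      refine ⟨L.inv_mem haL, ?_⟩
      calc a⁻¹ * d * a⁻¹⁻¹ = a⁻¹ * (a * d * a⁻¹) * a := by rw [ha, inv_inv]
        _ = d := by group
    · right
      refine ⟨fun h => haL (by simpa using L.inv_mem h), ?_⟩
      have h1 : d = a⁻¹ * d⁻¹ * a := by rw [← ha]; group
      calc a⁻¹ * d * a⁻¹⁻¹ = (a⁻¹ * d⁻¹ * a)⁻¹ := by group
        _ = d⁻¹ := by rw [← h1]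

/-- for `c ∈ D` (`D ≤ L ≤ H`): `Tw H L d c ↔ c d c⁻¹ = d`. -/
theorem tw_of_mem (hs : TwSet H D L) (d c : G) (hc : c ∈ D) : Tw H L d c ↔ c * d * c⁻¹ = d := by
  have hL : c ∈ L := hs.DL hc
  constructor
  · rintro ⟨-, ⟨-, h⟩ | ⟨h, -⟩⟩
    · exact h
    · exact absurd hL h
  · intro h
    exact ⟨hs.LH hL, Or.inl ⟨hL, h⟩⟩

/-- `Z(D) = 1`. -/
theorem center_free (hs : TwSet H D L) (z : G) (hz : z ∈ D) (hc : ∀ d ∈ D, d * z = z * d) : z = 1 := by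
  let Z : Subgroup G := D ⊓ Subgroup.centralizer (D : Set G)
  have hzZ : z ∈ Z := ⟨hz, Subgroup.mem_centralizer_iff.2 hc⟩
  have hinv : Inv D Z := by
    intro n hn s hs'
    have h1 := Subgroup.mem_centralizer_iff.1 hs'.2 n hn
    have : n * s * n⁻¹ = s := by rw [h1]; group
    rw [this]; exact hs'
  rcases hs.simp Z inf_le_left hinv with h | h
  · rw [h] at hzZ
    exact Subgroup.mem_bot.1 hzZ
  · exfalso
    obtain ⟨a, ha, b, hb, hab⟩ := hs.nab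
    have hbZ : b ∈ Z := h ▸ hb
    exact hab (Subgroup.mem_centralizer_iff.1 hbZ.2 a ha)

/-- not every element of `H` is in the twisted centraliser of `y ≠ 1`. -/
theorem exists_not_tw (hs : TwSet H D L) (y : G) (hy : y ∈ D) (hy1 : y ≠ 1) : ∃ h ∈ H, ¬ Tw H L y h := by
  by_contra hcon
  apply hy1
  apply center_free hs y hy
  intro d hd
  have hdH : d ∈ H := hs.LH (hs.DL hd)
  have htw : Tw H L y d := by
    by_contra h
    exact hcon ⟨d, hdH, h⟩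
  have := (tw_of_mem hs y d hd).1 htw
  calc d * y = (d * y * d⁻¹) * d := by group
    _ = y * d := by rw [this]

/-- Twisted centralisers of non-identity elements of `D` are incomparable. -/
theorem tw_eq_of_le (hs : TwSet H D L) (x y : G) (hx : x ∈ D) (hx1 : x ≠ 1) (hy : y ∈ D) (hy1 : y ≠ 1)
    (hle : ∀ h, Tw H L x h → Tw H L y h) : ∀ h, Tw H L x h ↔ Tw H L y h := by
  obtain ⟨X, hX⟩ := exists_twSub hs y
  rcases hs.max x hx hx1 X (fun h hh => (hX h).2 (hle h hh)) (fun h hh => ((hX h).1 hh).1) with h | h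
  · intro k
    exact ⟨hle k, fun hk => h k ((hX k).2 hk)⟩
  · exfalso
    obtain ⟨k, hkH, hk⟩ := exists_not_tw hs y hy hy1
    exact hk ((hX k).1 (h ▸ hkH))

/-- `h x h⁻¹ = x^{±1}` implies `h xⁿ h⁻¹ = (xⁿ)^{±1}`; then `tw_eq_of_le`. -/
theorem tw_pow (hs : TwSet H D L) (x : G) (hx : x ∈ D) (n : ℕ) (hn : x ^ n ≠ 1) :
    ∀ h, Tw H L x h ↔ Tw H L (x ^ n) h := by
  have hx1 : x ≠ 1 := by
    rintro rfl
    exact hn (one_pow n)
  apply tw_eq_of_le hs x (x ^ n) hx hx1 (D.pow_mem hx n) hn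
  rintro h ⟨hH, ⟨hL, he⟩ | ⟨hL, he⟩⟩
  · exact ⟨hH, Or.inl ⟨hL, by rw [← conj_pow, he]⟩⟩
  · exact ⟨hH, Or.inr ⟨hL, by rw [← conj_pow, he, inv_pow]⟩⟩

/-- `Tw x ↔ Tw x⁻¹`. -/
theorem tw_inv (x h : G) : Tw H L x h ↔ Tw H L x⁻¹ h := by
  unfold Tw
  rw [conj_inv', inv_inj, inv_inj]

end Cfsg.Agent.Lib.H31EPTw1
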