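import Mathlib
import Cfsg.Agent.Lib.H31EPDefs
import Cfsg.Agent.Lib.H31EPTw1

set_option autoImplicit false

namespace Cfsg.Agent.Lib.H31EPTw2

open Cfsg.Agent.Lib.H31EPDefs

variable {G : Type*} [Group G] {H D L : Subgroup G}

/-- Key step.  `x, y ∈ D \ 1` commute, their twisted centralisers differ, `xⁿ = 1`.  Then `yⁿ = 1`. -/
theorem pow_eq_one (hs : TwSet H D L) (x y : G) (hx : x ∈ D) (hx1 : x ≠ 1) (hy : y ∈ D) (hy1 : y ≠ 1)
    (hc : x * y = y * x) (hne : ¬ ∀ h, Tw H L x h ↔ Tw H L y h) (n : ℕ) (hn : x ^ n = 1) : y ^ n = 1 := by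
  by_contra hyn
  have hxyD : x * y ∈ D := D.mul_mem hx hy
  have hpow : (x * y) ^ n = y ^ n := by
    rw [(show Commute x y from hc).mul_pow, hn, one_mul]
  have h1 := H31EPTw1.tw_pow hs (x * y) hxyD n (by rw [hpow]; exact hyn)
  have h2 := H31EPTw1.tw_pow hs y hy n hyn
  have h3 : ∀ h, Tw H L y h → Tw H L (x * y) h := by
    intro h hh
    rw [h1, hpow, ← h2]
    exact hh
  have claim : ∀ h, Tw H L y h → Tw H L x h := by
    intro h hh
    have hxy := h3 h hh
    obtain ⟨hH, hcase⟩ := hh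
    obtain ⟨-, hcase'⟩ := hxy
    refine ⟨hH, ?_⟩
    have hsplit : h * (x * y) * h⁻¹ = (h * x * h⁻¹) * (h * y * h⁻¹) := by group
    rcases hcase with ⟨hL, hy'⟩ | ⟨hL, hy'⟩
    · rcases hcase' with ⟨-, hxy'⟩ | ⟨hL', -⟩
      · left
        refine ⟨hL, ?_⟩
        rw [hsplit, hy'] at hxy'
        exact mul_right_cancel hxy'
      · exact absurd hL hL'
    · rcases hcase' with ⟨hL', -⟩ | ⟨-, hxy'⟩
      · exact absurd hL' hL
      · right
        refine ⟨hL, ?_⟩
        rw [hsplit, hy', hc, mul_inv_rev] at hxy'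
        exact mul_right_cancel hxy'
  have := H31EPTw1.tw_eq_of_le hs y x hy hy1 hx hx1 claim
  exact hne (fun h => (this h).symm)

theorem order_eq (hs : TwSet H D L) (x y : G) (hx : x ∈ D) (hx1 : x ≠ 1) (hy : y ∈ D)
    (hy1 : y ≠ 1) (hc : x * y = y * x) (hne : ¬ ∀ h, Tw H L x h ↔ Tw H L y h) :
    orderOf x = orderOf y := by
  apply Nat.dvd_antisymm
  · apply orderOf_dvd_of_pow_eq_one
    exact pow_eq_one hs y x hy hy1 hx hx1 hc.symm (fun h => hne (fun k => (h k).symm)) _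
      (pow_orderOf_eq_one y)
  · apply orderOf_dvd_of_pow_eq_one
    exact pow_eq_one hs x y hx hx1 hy hy1 hc hne _ (pow_orderOf_eq_one x)

/-- PIECE Tw2.  Commuting `x, y ∈ D \ 1` with different twisted centralisers have the same prime order. -/
theorem same_prime [Finite G] (hs : TwSet H D L) (x y : G) (hx : x ∈ D) (hx1 : x ≠ 1) (hy : y ∈ D)
    (hy1 : y ≠ 1) (hc : x * y = y * x) (hne : ¬ ∀ h, Tw H L x h ↔ Tw H L y h) :
    ∃ p : ℕ, p.Prime ∧ orderOf x = p ∧ orderOf y = p := by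
  have heq := order_eq hs x y hx hx1 hy hy1 hc hne
  refine ⟨orderOf x, ?_, rfl, heq.symm⟩
  by_contra hnp
  have hpos : 0 < orderOf x := orderOf_pos x
  have hn1 : orderOf x ≠ 1 := fun h => hx1 (orderOf_eq_one_iff.1 h)
  set a := (orderOf x).minFac with ha
  have hap : a.Prime := Nat.minFac_prime hn1
  have hadvd : a ∣ orderOf x := Nat.minFac_dvd _
  have halt : a < orderOf x := by
    rcases lt_or_eq_of_le (Nat.le_of_dvd hpos hadvd) with h | h
    · exact h
    · exact absurd (h ▸ hap) hnp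
  have hx'1 : x ^ a ≠ 1 := pow_ne_one_of_lt_orderOf hap.ne_zero halt
  have hx'D : x ^ a ∈ D := D.pow_mem hx a
  have htw := H31EPTw1.tw_pow hs x hx a hx'1
  have hc' : x ^ a * y = y * x ^ a := ((show Commute x y from hc).pow_left a)
  have hne' : ¬ ∀ h, Tw H L (x ^ a) h ↔ Tw H L y h := by
    intro h
    exact hne (fun k => (htw k).trans (h k))
  have heq' := order_eq hs (x ^ a) y hx'D hx'1 hy hy1 hc' hne'
  rw [orderOf_pow_of_dvd hap.ne_zero hadvd, ← heq] at heq'
  have : orderOf x / a < orderOf x := Nat.div_lt_self hpos hap.one_lt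
  omega

end Cfsg.Agent.Lib.H31EPTw2
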