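import Mathlib
import Cfsg.Agent.Lib.H31EPDefs
import Cfsg.Agent.Lib.H31EPTw1
import Cfsg.Agent.Lib.H31EPTw2

set_option autoImplicit false

namespace Cfsg.Agent.Lib.H31EPTw3

open Cfsg.Agent.Lib.H31EPDefs

variable {G : Type*} [Group G] {H D L : Subgroup G}

/-- PIECE Tw3a (60m).  Dichotomy for `C_D(x)`, `1 ≠ x ∈ D`: either all `1 ≠ y ∈ C_D(x)` have `C_D(y) = C_D(x)`, or `C_D(x)` has prime exponent.
Case 1: every `1 ≠ y ∈ C_D(x)` has the same twisted centraliser as `x`: then for `z ∈ D`, `z y = y z ↔ Tw y z ↔ Tw x z ↔ z x = x z` (`Tw1.tw_of_mem`).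
Case 2: some `1 ≠ y ∈ C_D(x)` has a different one: `Tw2.same_prime` gives `orderOf x = orderOf y = p`.  Let `1 ≠ z ∈ C_D(x)`.  If `Tw z` differs from `Tw x`,
`orderOf z = orderOf x = p` by `Tw2.same_prime`.  Otherwise `Tw z = Tw x ≠ Tw y`, and `z` commutes with `y` (as `y ∈ D`, `Tw x y`, so `Tw z y`, `Tw1.tw_of_mem`),
so `orderOf z = orderOf y = p`. -/
theorem dich [Finite G] (hs : TwSet H D L) (x : G) (hx : x ∈ D) (hx1 : x ≠ 1) :
    (∀ y ∈ D, y ≠ 1 → x * y = y * x → ∀ z ∈ D, (z * y = y * z ↔ z * x = x * z)) ∨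
    (∃ p : ℕ, p.Prime ∧ ∀ y ∈ D, x * y = y * x → y ^ p = 1) := by
  classical
  by_cases hall : ∃ y ∈ D, y ≠ 1 ∧ x * y = y * x ∧ ¬ ∀ h, Tw H L x h ↔ Tw H L y h
  · right
    obtain ⟨y, hy, hy1, hc, hne⟩ := hall
    obtain ⟨p, hp, hxp, hyp⟩ := H31EPTw2.same_prime hs x y hx hx1 hy hy1 hc hne
    refine ⟨p, hp, ?_⟩
    intro z hz hcz
    by_cases hz1 : z = 1
    · rw [hz1, one_pow]
    by_cases hzx : ∀ h, Tw H L x h ↔ Tw H L z h
    · have hzy : z * y = y * z := by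
        have h1 : Tw H L x y :=
          (H31EPTw1.tw_of_mem hs x y hy).2 (by rw [mul_inv_eq_iff_eq_mul]; exact hc.symm)
        have h2 := (H31EPTw1.tw_of_mem hs z y hy).1 ((hzx y).1 h1)
        rw [mul_inv_eq_iff_eq_mul] at h2
        exact h2.symm
      have hne' : ¬ ∀ h, Tw H L z h ↔ Tw H L y h :=
        fun hh => hne (fun h => (hzx h).trans (hh h))
      obtain ⟨p', hp', hzp, hyp'⟩ := H31EPTw2.same_prime hs z y hz hz1 hy hy1 hzy hne'
      have hpp : p' = p := by rw [← hyp', hyp]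
      rw [← hpp, ← hzp]
      exact pow_orderOf_eq_one z
    · obtain ⟨p', hp', hxp', hzp⟩ := H31EPTw2.same_prime hs x z hx hx1 hz hz1 hcz hzx
      have hpp : p' = p := by rw [← hxp', hxp]
      rw [← hpp, ← hzp]
      exact pow_orderOf_eq_one z
  · left
    intro y hy hy1 hc z hz
    have h3 : ∀ h, Tw H L x h ↔ Tw H L y h := by
      by_contra hcon
      exact hall ⟨y, hy, hy1, hc, hcon⟩
    have h1 := H31EPTw1.tw_of_mem hs y z hz
    have h2 := H31EPTw1.tw_of_mem hs x z hz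
    have e1 : z * y * z⁻¹ = y ↔ z * y = y * z := mul_inv_eq_iff_eq_mul
    have e2 : z * x * z⁻¹ = x ↔ z * x = x * z := mul_inv_eq_iff_eq_mul
    rw [← e1, ← e2, ← h1, ← h2]
    exact (h3 z).symm

/-- PIECE Tw3b (60m).  `N_D(C_D(z)) = C_D(z)` for `1 ≠ z ∈ D`.
Let `C = D ⊓ centralizer {z}` and `X = H ⊓ normalizer C`.  Every `h` with `Tw H L z h` is in `X`: `h` normalises `D` (`norm`, also for `h⁻¹`) and
`h z h⁻¹ = z^{±1}`, so `y` commutes with `z` iff `h y h⁻¹` commutes with `z^{±1}` iff with `z`.  By `TwSet.max`: either all of `X` is in the twisted centraliser, and then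
`g ∈ X ∩ D` satisfies `g z g⁻¹ = z` (`Tw1.tw_of_mem`); or `X = H`; then `C` is `D`-invariant, so `C = ⊥` or `C = D` by `simp`; `z ∈ C` excludes `⊥`,
and `C = D` says `z` is central in `D`, so `z = 1` (`Tw1.center_free`). -/
theorem nor (hs : TwSet H D L) (z : G) (hz : z ∈ D) (hz1 : z ≠ 1) (g : G) (hg : g ∈ D)
    (hn : ∀ y ∈ D, (y * z = z * y ↔ (g * y * g⁻¹) * z = z * (g * y * g⁻¹))) : g * z = z * g := by
  classical
  obtain ⟨C, hC⟩ : ∃ C : Subgroup G, C = D ⊓ Subgroup.centralizer {z} := ⟨_, rfl⟩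
  have memC : ∀ y, y ∈ C ↔ y ∈ D ∧ y * z = z * y := by
    intro y
    rw [hC, Subgroup.mem_inf, Subgroup.mem_centralizer_singleton_iff]
  obtain ⟨X, hX⟩ : ∃ X : Subgroup G, X = H ⊓ Subgroup.normalizer (C : Set G) := ⟨_, rfl⟩
  have memX : ∀ h, h ∈ X ↔ h ∈ H ∧ ∀ y, y ∈ C ↔ h * y * h⁻¹ ∈ C := by
    intro h
    rw [hX, Subgroup.mem_inf, Subgroup.mem_normalizer_iff]
  have hDiff : ∀ h ∈ H, ∀ y, y ∈ D ↔ h * y * h⁻¹ ∈ D := by
    intro h hh y
    constructor
    · exact hs.norm h hh y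
    · intro hy
      have := hs.norm h⁻¹ (H.inv_mem hh) _ hy
      have e : h⁻¹ * (h * y * h⁻¹) * h⁻¹⁻¹ = y := by group
      rwa [e] at this
  have hTwX : ∀ h, Tw H L z h → h ∈ X := by
    intro h hT
    obtain ⟨hh, hcase⟩ := hT
    rw [memX]
    refine ⟨hh, ?_⟩
    intro y
    rw [memC, memC, ← hDiff h hh y]
    have key : y * z = z * y ↔ h * y * h⁻¹ * z = z * (h * y * h⁻¹) := by
      have c0 : Commute (h * y * h⁻¹) (h * z * h⁻¹) ↔ Commute y z := Commute.conj_iff h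
      rcases hcase with ⟨-, e⟩ | ⟨-, e⟩
      · rw [e] at c0
        exact c0.symm
      · rw [e, Commute.inv_right_iff] at c0
        exact c0.symm
    rw [key]
  have XH : X ≤ H := by
    intro h hh
    exact ((memX h).1 hh).1
  have DH : D ≤ H := hs.DL.trans hs.LH
  rcases hs.max z hz hz1 X hTwX XH with hA | hB
  · have hgX : g ∈ X := by
      rw [memX]
      refine ⟨DH hg, ?_⟩
      intro y
      rw [memC, memC, ← hDiff g (DH hg) y]
      constructor
      · rintro ⟨a, b⟩; exact ⟨a, (hn y a).1 b⟩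
      · rintro ⟨a, b⟩; exact ⟨a, (hn y a).2 b⟩
    have h1 := (H31EPTw1.tw_of_mem hs z g hg).1 (hA g hgX)
    rwa [mul_inv_eq_iff_eq_mul] at h1
  · exfalso
    have hCD : C ≤ D := fun y hy => ((memC y).1 hy).1
    have hinv : Inv D C := by
      intro d hd s hsC
      have hdX : d ∈ X := by rw [hB]; exact DH hd
      exact (((memX d).1 hdX).2 s).1 hsC
    have hzC : z ∈ C := (memC z).2 ⟨hz, rfl⟩
    rcases hs.simp C hCD hinv with h0 | h0
    · rw [h0, Subgroup.mem_bot] at hzC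
      exact hz1 hzC
    · apply hz1
      apply H31EPTw1.center_free hs z hz
      intro d hd
      have : d ∈ C := by rw [h0]; exact hd
      exact ((memC d).1 this).2

end Cfsg.Agent.Lib.H31EPTw3
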