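import Mathlib

/-!
# Vocabulary for S4022 (subgroups of equal order are conjugate)
-/

set_option autoImplicit false
open Pointwise

namespace Cfsg.Agent.Lib.H31EqDefs

universe u

/-- `K` is a `G`-conjugate of `H`. -/
def Cj {G : Type u} [Group G] (H K : Subgroup G) : Prop :=
  ∃ g : G, K = H.map (MulAut.conj g).toMonoidHom

/-- for every prime `p`, `p`-subgroups of equal order are conjugate. -/
def PD (G : Type u) [Group G] : Prop :=
  ∀ p : ℕ, p.Prime → ∀ H K : Subgroup G, IsPGroup p H → IsPGroup p K →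
    Nat.card H = Nat.card K → Cj H K

/-- the Sylow `p`-subgroups are cyclic for all `p ≠ r`. -/
def PC (r : ℕ) (G : Type u) [Group G] : Prop :=
  ∀ p : ℕ, p.Prime → p ≠ r → ∀ P : Sylow p G, IsCyclic P

/-- subgroups of equal order are conjugate. -/
def AllCj (G : Type u) [Group G] : Prop :=
  ∀ H K : Subgroup G, Nat.card H = Nat.card K → Cj H K

variable {G : Type u} [Group G]

theorem map_conj_mul (H : Subgroup G) (g h : G) :
    (H.map (MulAut.conj g).toMonoidHom).map (MulAut.conj h).toMonoidHom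
      = H.map (MulAut.conj (h * g)).toMonoidHom := by
  rw [Subgroup.map_map]
  congr 1
  ext x
  simp [mul_assoc]

theorem Cj.refl (H : Subgroup G) : Cj H H := ⟨1, by
  ext x
  simp⟩

theorem Cj.trans {H K L : Subgroup G} (h1 : Cj H K) (h2 : Cj K L) : Cj H L := by
  obtain ⟨g, rfl⟩ := h1
  obtain ⟨h, rfl⟩ := h2
  exact ⟨h * g, map_conj_mul H g h⟩

theorem Cj.symm {H K : Subgroup G} (h1 : Cj H K) : Cj K H := by
  obtain ⟨g, rfl⟩ := h1
  refine ⟨g⁻¹, ?_⟩
  rw [map_conj_mul]
  ext x
  simp

theorem card_map_conj (H : Subgroup G) (g : G) :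
    Nat.card (H.map (MulAut.conj g).toMonoidHom) = Nat.card H :=
  Subgroup.card_map_of_injective (MulAut.conj g).injective

theorem Cj.of_smul {H K : Subgroup G} (h : ∃ g : G, MulAut.conj g • H = K) : Cj H K := by
  obtain ⟨g, rfl⟩ := h
  exact ⟨g, rfl⟩

theorem map_conj_normal (N : Subgroup G) [N.Normal] (g : G) :
    N.map (MulAut.conj g).toMonoidHom = N := by
  ext x
  simp only [Subgroup.mem_map, MulEquiv.coe_toMonoidHom, MulAut.conj_apply]
  constructor
  · rintro ⟨y, hy, rfl⟩
    exact Subgroup.Normal.conj_mem inferInstance y hy g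
  · intro hx
    refine ⟨g⁻¹ * x * g, ?_, by group⟩
    simpa using Subgroup.Normal.conj_mem (inferInstance : N.Normal) x hx g⁻¹

end Cfsg.Agent.Lib.H31EqDefs
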