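import Mathlib
import Cfsg.Agent.Lib.H31EqDefs


set_option autoImplicit false
open Pointwise

namespace Cfsg.Agent.Lib.H31EqCardInf

open Cfsg.Agent.Lib.H31EqDefs

universe u

/-- PIECE CardInf.  If `N` is a normal Sylow `r`-subgroup, `|H ⊓ N|` and `N.relIndex H` only depend on `|H|`.
Sketch: `|H| = |H ⊓ N| * N.relIndex H` (`Subgroup.relIndex_mul_relIndex ⊥ (H ⊓ N) H`, `relIndex_bot_left`,
`inf_relIndex_left/right`), `|H ⊓ N| = r ^ a` (`IsPGroup.to_le`/`to_subgroup`, `exists_card_eq`), and `N.relIndex H ∣ N.index`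
(`Subgroup.relIndex_dvd_index_of_normal`) is prime to `r`.  From `r ^ a * u = r ^ b * v` with `u v` prime to `r` get
`a = b` (e.g. `Nat.Coprime.dvd_of_dvd_mul_right` twice + `Nat.pow_dvd_pow_iff_le_right`, or factorization) and then `u = v`. -/
theorem card_inf_eq {G : Type u} [Group G] [Finite G] (r : ℕ) (hr : r.Prime)
    (N : Subgroup G) [N.Normal] (hNr : IsPGroup r N) (hsyl : ¬ r ∣ N.index) (H K : Subgroup G)
    (h : Nat.card H = Nat.card K) :
    Nat.card (H ⊓ N : Subgroup G) = Nat.card (K ⊓ N : Subgroup G) ∧ N.relIndex H = N.relIndex K := by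
  have key : ∀ H : Subgroup G, Nat.card (H ⊓ N : Subgroup G) * N.relIndex H = Nat.card H := by
    intro H
    have := Subgroup.relIndex_mul_relIndex ⊥ (H ⊓ N) H bot_le inf_le_left
    rwa [Subgroup.relIndex_bot_left, Subgroup.relIndex_bot_left, Subgroup.inf_relIndex_left]
      at this
  have hcop : ∀ H : Subgroup G, ∃ a, Nat.card (H ⊓ N : Subgroup G) = r ^ a := by
    intro H
    haveI : Fact r.Prime := ⟨hr⟩
    exact (hNr.to_le inf_le_right).exists_card_eq
  have hnd : ∀ H : Subgroup G, Nat.Coprime r (N.relIndex H) := by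
    intro H
    rw [Nat.Prime.coprime_iff_not_dvd hr]
    exact fun h1 => hsyl (h1.trans (Subgroup.relIndex_dvd_index_of_normal N H))
  obtain ⟨a, ha⟩ := hcop H
  obtain ⟨b, hb⟩ := hcop K
  have e : r ^ a * N.relIndex H = r ^ b * N.relIndex K := by rw [← ha, ← hb, key, key, h]
  have h1 : r ^ a ∣ r ^ b :=
    (Nat.Coprime.pow_left a (hnd K)).dvd_of_dvd_mul_right (Dvd.intro _ e)
  have h2 : r ^ b ∣ r ^ a :=
    (Nat.Coprime.pow_left b (hnd H)).dvd_of_dvd_mul_right (Dvd.intro _ e.symm)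
  have h3 : r ^ a = r ^ b := Nat.dvd_antisymm h1 h2
  refine ⟨by rw [ha, hb, h3], ?_⟩
  rw [h3] at e
  exact Nat.eq_of_mul_eq_mul_left (pow_pos hr.pos b) e

end Cfsg.Agent.Lib.H31EqCardInf
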