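import Mathlib
import Cfsg.Agent.Lib.H31EqDefs


set_option autoImplicit false
open Pointwise

namespace Cfsg.Agent.Lib.H31EqCardPrime

open Cfsg.Agent.Lib.H31EqDefs

universe u

/-- PIECE CardPrime.  If the Sylow `s`-subgroups are cyclic, a nontrivial subgroup of exponent `s` has order `s`.
Sketch: `N` is an `s`-group (`IsPGroup`: `x ^ s ^ 1 = 1`), so `N ≤ P` for a Sylow `s`-subgroup `P`
(`IsPGroup.exists_le_sylow`), `P` is cyclic by `hC`, hence `N` is cyclic (subgroup of a cyclic group: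
`N.subgroupOf P` is cyclic by `Subgroup.isCyclic`, transport by `Subgroup.subgroupOfEquivOfLe`).  A generator `c` of `N` has
`c ^ s = 1`, so `|N| = orderOf c ∣ s` and `|N| ≠ 1`. -/
theorem card_eq_prime {G : Type u} [Group G] [Finite G] (r : ℕ) (hC : PC r G) (s : ℕ) (hs : s.Prime)
    (hsr : s ≠ r) (N : Subgroup G) (hN1 : N ≠ ⊥) (hexp : ∀ a ∈ N, a ^ s = 1) : Nat.card N = s := by
  haveI : Fact s.Prime := ⟨hs⟩
  have hp : IsPGroup s N := by
    intro x
    refine ⟨1, ?_⟩
    ext
    simpa using hexp x x.2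
  obtain ⟨P, hNP⟩ := hp.exists_le_sylow
  haveI : IsCyclic P := hC s hs hsr P
  haveI : IsCyclic (N.subgroupOf (P : Subgroup G)) := Subgroup.isCyclic _
  haveI : IsCyclic N := isCyclic_of_surjective (Subgroup.subgroupOfEquivOfLe hNP)
    (Subgroup.subgroupOfEquivOfLe hNP).surjective
  obtain ⟨c, hc⟩ := IsCyclic.exists_generator (α := N)
  have h1 : orderOf c = Nat.card N := orderOf_eq_card_of_forall_mem_zpowers hc
  have h2 : orderOf c ∣ s := orderOf_dvd_of_pow_eq_one (by
    ext
    simpa using hexp c c.2)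
  rw [h1] at h2
  rcases (Nat.dvd_prime hs).1 h2 with h3 | h3
  · exact absurd (Subgroup.card_eq_one.1 h3) hN1
  · exact h3

end Cfsg.Agent.Lib.H31EqCardPrime
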