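import Mathlib
import Cfsg.Agent.Lib.H31EqDefs


set_option autoImplicit false
open Pointwise

namespace Cfsg.Agent.Lib.H31EqFactA

open Cfsg.Agent.Lib.H31EqDefs

universe u

theorem factA {G : Type u} [Group G] [Finite G] (hD : PD G) (s : ℕ) (hs : s.Prime)
    (N : Subgroup G) [N.Normal] (hN : IsPGroup s N) (A : Subgroup G) (hA : IsPGroup s A)
    (hle : Nat.card A ≤ Nat.card N) : A ≤ N := by
  have : Fact s.Prime := ⟨hs⟩
  obtain ⟨a, ha⟩ := hA.exists_card_eq
  obtain ⟨n, hn⟩ := hN.exists_card_eq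
  have han : a ≤ n := by
    rw [ha, hn] at hle
    exact (Nat.pow_le_pow_iff_right hs.one_lt).mp hle
  obtain ⟨A₀, hA₀⟩ := Sylow.exists_subgroup_card_pow_prime (G := N) s
    (n := a) (by rw [hn]; exact pow_dvd_pow s han)
  set A' := A₀.map N.subtype with hA'
  have hcard : Nat.card A' = s ^ a := by
    rw [hA', Subgroup.card_map_of_injective N.subtype_injective, hA₀]
  have hA'N : A' ≤ N := Subgroup.map_subtype_le A₀
  have hA'p : IsPGroup s A' := IsPGroup.of_card hcard
  obtain ⟨g, hg⟩ := hD s hs A' A hA'p hA (by rw [hcard, ha])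
  rw [hg, ← map_conj_normal N g]
  exact Subgroup.map_mono hA'N

end Cfsg.Agent.Lib.H31EqFactA
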