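import Mathlib
import Cfsg.Agent.Lib.H31EqDefs


set_option autoImplicit false
open Pointwise

namespace Cfsg.Agent.Lib.H31EqLift

open Cfsg.Agent.Lib.H31EqDefs

universe u

theorem lift_sup {G : Type u} [Group G] (N : Subgroup G) [N.Normal] (H K : Subgroup G)
    (h : Cj (H.map (QuotientGroup.mk' N)) (K.map (QuotientGroup.mk' N))) :
    ∃ g : G, H.map (MulAut.conj g).toMonoidHom ⊔ N = K ⊔ N := by
  obtain ⟨gb, hgb⟩ := h
  obtain ⟨g, rfl⟩ := QuotientGroup.mk'_surjective N gb
  refine ⟨g, ?_⟩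
  have e : ((H.map (QuotientGroup.mk' N)).map (MulAut.conj (QuotientGroup.mk' N g)).toMonoidHom)
      = (H.map (MulAut.conj g).toMonoidHom).map (QuotientGroup.mk' N) := by
    rw [Subgroup.map_map, Subgroup.map_map]
    congr 1
  rw [e] at hgb
  have h2 := congrArg (Subgroup.comap (QuotientGroup.mk' N)) hgb
  rw [Subgroup.comap_map_eq, Subgroup.comap_map_eq, QuotientGroup.ker_mk'] at h2
  exact h2.symm

theorem lift_cj {G : Type u} [Group G] (N : Subgroup G) [N.Normal] (H K : Subgroup G)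
    (hH : N ≤ H) (hK : N ≤ K)
    (h : Cj (H.map (QuotientGroup.mk' N)) (K.map (QuotientGroup.mk' N))) : Cj H K := by
  obtain ⟨g, hg⟩ := lift_sup N H K h
  refine ⟨g, ?_⟩
  have h1 : N ≤ H.map (MulAut.conj g).toMonoidHom := by
    conv_lhs => rw [← map_conj_normal N g]
    exact Subgroup.map_mono hH
  rw [sup_eq_left.mpr h1, sup_eq_left.mpr hK] at hg
  exact hg.symm

end Cfsg.Agent.Lib.H31EqLift
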