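import Mathlib
import Cfsg.Agent.Lib.H31EqDefs
import Cfsg.Agent.Lib.Helper12Hall
import Cfsg.Agent.Lib.H31EqFactA
import Cfsg.Agent.Lib.H31EqLift

set_option autoImplicit false
open Pointwise

namespace Cfsg.Agent.Lib.H31EqCase1

open Cfsg.Agent.Lib.H31EqDefs

universe u

open Cfsg.Agent.Lib.Helper12Hall Cfsg.Agent.Lib.H31EqFactA Cfsg.Agent.Lib.H31EqLift

/-- ASSEMBLY: the case of a normal subgroup of prime order. -/
theorem case1 {G : Type u} [Group G] [Finite G] [Group.IsSolvable G] (hD : PD G)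
    (N : Subgroup G) [N.Normal] (s : ℕ) (hs : s.Prime) (hN : Nat.card N = s)
    (ih : AllCj (G ⧸ N)) : AllCj G := by
  intro H K hHK
  haveI : Fact s.Prime := ⟨hs⟩
  have hNp : IsPGroup s N := IsPGroup.of_card (n := 1) (by simpa using hN)
  have key : ∀ X : Subgroup G, s ∣ Nat.card X → N ≤ X := by
    intro X hX
    obtain ⟨x, hx⟩ := exists_prime_orderOf_dvd_card' s hX
    have hz : Nat.card (Subgroup.zpowers (x : G)) = s := by
      rw [Nat.card_zpowers, Subgroup.orderOf_coe, hx]
    have hle : Subgroup.zpowers (x : G) ≤ N :=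
      factA hD s hs N hNp _ (IsPGroup.of_card (n := 1) (by simpa using hz)) (by rw [hz, hN])
    have : Subgroup.zpowers (x : G) = N := Subgroup.eq_of_le_of_card_ge hle (by rw [hz, hN])
    rw [← this]
    exact Subgroup.zpowers_le.2 x.2
  have e1 := card_map_mk' N H
  have e2 := card_map_mk' N K
  by_cases hsH : s ∣ Nat.card H
  · have h1 := key H hsH
    have h2 := key K (hHK ▸ hsH)
    apply lift_cj N H K h1 h2
    apply ih
    rw [inf_of_le_right h1] at e1
    rw [inf_of_le_right h2] at e2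
    exact Nat.eq_of_mul_eq_mul_left Nat.card_pos (e1.trans (hHK.trans e2.symm))
  · have hcop : ∀ X : Subgroup G, ¬ s ∣ Nat.card X → (Nat.card X).Coprime (Nat.card N) := by
      intro X hX
      rw [hN]
      exact ((Nat.Prime.coprime_iff_not_dvd hs).2 hX).symm
    have hsK : ¬ s ∣ Nat.card K := hHK ▸ hsH
    rw [(Subgroup.disjoint_of_coprime_natCard (hcop H hsH)).eq_bot] at e1
    rw [(Subgroup.disjoint_of_coprime_natCard (hcop K hsK)).eq_bot] at e2
    simp only [Subgroup.card_bot, one_mul] at e1 e2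
    obtain ⟨g, hg⟩ := lift_sup N H K (ih _ _ (e1.trans (hHK.trans e2.symm)))
    refine Cj.trans ⟨g, rfl⟩ (Cj.of_smul (sz_conj N _ K hg ?_ (hcop K hsK)))
    rw [card_map_conj]
    exact hcop H hsH

end Cfsg.Agent.Lib.H31EqCase1
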