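import Mathlib
import Cfsg.Agent.Lib.H31EqDefs


set_option autoImplicit false
open Pointwise

namespace Cfsg.Agent.Lib.H31EqExCompl

open Cfsg.Agent.Lib.H31EqDefs

universe u

/-- PIECE ExCompl.  If `N` is a normal Sylow `r`-subgroup, every subgroup `H` splits over `H ⊓ N`.
Sketch: in the type `H`, `N.subgroupOf H` is normal, its order is a power of `r` and its index `N.relIndex H` divides
`N.index` (`Subgroup.relIndex_dvd_index_of_normal`), so it is prime to `r`; `Subgroup.exists_right_complement'_of_coprime` gives a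
complement `C : Subgroup H`.  Put `H' := C.map H.subtype`.  `|H'| = |C| = (N.subgroupOf H).index = N.relIndex H`
(`Subgroup.IsComplement'.index_eq_card` or `card_mul`), and `(N.subgroupOf H) ⊔ C = ⊤` (`IsComplement'.sup_eq_top`) maps to
`(H ⊓ N) ⊔ H' = H` (`Subgroup.map_sup`, `Subgroup.subgroupOf_map_subtype`, `← MonoidHom.range_eq_map`, `Subgroup.range_subtype`). -/
theorem exists_compl {G : Type u} [Group G] [Finite G] (r : ℕ) (hr : r.Prime)
    (N : Subgroup G) [N.Normal] (hNr : IsPGroup r N) (hsyl : ¬ r ∣ N.index) (H : Subgroup G) :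
    ∃ H' : Subgroup G, H' ≤ H ∧ (H ⊓ N) ⊔ H' = H ∧ Nat.card H' = N.relIndex H ∧
      ¬ r ∣ Nat.card H' := by
  haveI : Fact r.Prime := ⟨hr⟩
  have hnd : ¬ r ∣ N.relIndex H :=
    fun h1 => hsyl (h1.trans (Subgroup.relIndex_dvd_index_of_normal N H))
  have hp : IsPGroup r (N.subgroupOf H) := hNr.comap_subtype
  obtain ⟨a, ha⟩ := hp.exists_card_eq
  have hcop : Nat.Coprime (Nat.card (N.subgroupOf H)) (N.subgroupOf H).index := by
    rw [ha]
    exact Nat.Coprime.pow_left a ((Nat.Prime.coprime_iff_not_dvd hr).2 hnd)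
  obtain ⟨C, hC⟩ := Subgroup.exists_right_complement'_of_coprime hcop
  have hcard : Nat.card (C.map H.subtype) = N.relIndex H := by
    rw [Subgroup.card_map_of_injective H.subtype_injective]
    exact hC.symm.index_eq_card.symm
  refine ⟨C.map H.subtype, Subgroup.map_subtype_le C, ?_, hcard, by rw [hcard]; exact hnd⟩
  have h1 := hC.sup_eq_top
  have h2 := congrArg (Subgroup.map H.subtype) h1
  rw [Subgroup.map_sup, Subgroup.subgroupOf_map_subtype, ← MonoidHom.range_eq_map,
    Subgroup.range_subtype] at h2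
  rwa [inf_comm] at h2

end Cfsg.Agent.Lib.H31EqExCompl
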