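import Mathlib
import Cfsg.Agent.Lib.H31EqDefs
import Cfsg.Agent.Lib.Helper12Hall

set_option autoImplicit false
open Pointwise

namespace Cfsg.Agent.Lib.H31EqHallCommon

open Cfsg.Agent.Lib.H31EqDefs

universe u

/-- PIECE HallCommon.  Two `r'`-subgroups of a solvable subgroup `M` can be moved, by an element of `M`, into a common
`r'`-subgroup `L ≤ M`. -/
theorem hall_common {G : Type u} [Group G] [Finite G] [Group.IsSolvable G] (r : ℕ) (hr : r.Prime)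
    (M A B : Subgroup G) (hA : A ≤ M) (hB : B ≤ M) (hAr : ¬ r ∣ Nat.card A) (hBr : ¬ r ∣ Nat.card B) :
    ∃ L : Subgroup G, L ≤ M ∧ ¬ r ∣ Nat.card L ∧ ∃ m ∈ M, A.map (MulAut.conj m).toMonoidHom ≤ L ∧ B ≤ L := by
  have hM0 : Nat.card M ≠ 0 := Nat.card_pos.ne'
  obtain ⟨b, u, hu, hMu⟩ := Nat.exists_eq_pow_mul_and_not_dvd hM0 r hr.ne_one
  have hcard : Nat.card M = u * r ^ b := by rw [hMu, mul_comm]
  have hcop : u.Coprime (r ^ b) :=
    Nat.Coprime.pow_right _ ((Nat.Prime.coprime_iff_not_dvd hr).2 hu).symm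
  have hAc : (Nat.card (A.subgroupOf M)).Coprime (r ^ b) := by
    rw [Helper12Hall.card_subgroupOf hA]
    exact Nat.Coprime.pow_right _ ((Nat.Prime.coprime_iff_not_dvd hr).2 hAr).symm
  have hBc : (Nat.card (B.subgroupOf M)).Coprime (r ^ b) := by
    rw [Helper12Hall.card_subgroupOf hB]
    exact Nat.Coprime.pow_right _ ((Nat.Prime.coprime_iff_not_dvd hr).2 hBr).symm
  obtain ⟨L₁, hL₁, hAL⟩ := Helper12Hall.hall_dominance u (r ^ b) hcard hcop _ hAc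
  obtain ⟨L₂, hL₂, hBL⟩ := Helper12Hall.hall_dominance u (r ^ b) hcard hcop _ hBc
  obtain ⟨g, hg⟩ := Helper12Hall.hall_conj u (r ^ b) hcard hcop L₁ L₂ hL₁ hL₂
  refine ⟨L₂.map M.subtype, ?_, ?_, (g : G), g.2, ?_, ?_⟩
  · rintro x ⟨y, -, rfl⟩
    exact y.2
  · rw [Helper12Hall.card_map_subtype, hL₂]
    exact hu
  · rintro x ⟨a, ha, rfl⟩
    have ha' : (⟨a, hA ha⟩ : M) ∈ L₁ := hAL (Subgroup.mem_subgroupOf.2 ha)
    have h1 : MulAut.conj g • (⟨a, hA ha⟩ : M) ∈ MulAut.conj g • L₁ :=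
      Subgroup.smul_mem_pointwise_smul _ _ _ ha'
    rw [hg] at h1
    exact ⟨_, h1, by simp [MulAut.smul_def]⟩
  · intro x hx
    exact ⟨⟨x, hB hx⟩, hBL (Subgroup.mem_subgroupOf.2 hx), rfl⟩

end Cfsg.Agent.Lib.H31EqHallCommon
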