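import Mathlib
import Cfsg.Agent.Lib.H31EqDefs
import Cfsg.Agent.Lib.Helper29Basic

set_option autoImplicit false
open Pointwise

namespace Cfsg.Agent.Lib.H31EqPdCyc

open Cfsg.Agent.Lib.H31EqDefs

universe u

theorem pd_of_cyclic {L : Type u} [Group L] [Finite L]
    (h : ∀ p : ℕ, p.Prime → ∀ P : Sylow p L, IsCyclic P) : PD L := by
  intro p hp H K hH hK hHK
  haveI : Fact p.Prime := ⟨hp⟩
  obtain ⟨P, hP⟩ := hH.exists_le_sylow
  obtain ⟨Q, hQ⟩ := hK.exists_le_sylow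
  obtain ⟨g, hg⟩ := MulAction.exists_smul_eq L P Q
  refine ⟨g, ?_⟩
  have h1 : H.map (MulAut.conj g).toMonoidHom ≤ (Q : Subgroup L) := by
    rw [← hg, Sylow.coe_subgroup_smul]
    exact Subgroup.map_mono hP
  exact Cfsg.Agent.Lib.Helper29Basic.eq_of_card_eq_of_le_cyclic (h p hp Q) hQ h1
    (by rw [card_map_conj, hHK])

end Cfsg.Agent.Lib.H31EqPdCyc
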