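import Mathlib
import Cfsg.Agent.Lib.H31EqDefs


set_option autoImplicit false
open Pointwise

namespace Cfsg.Agent.Lib.H31EqSubCj

open Cfsg.Agent.Lib.H31EqDefs

universe u

theorem sub_cj {G : Type u} [Group G] (L : Subgroup G) (h : AllCj L) (A B : Subgroup G)
    (hA : A ≤ L) (hB : B ≤ L) (hAB : Nat.card A = Nat.card B) :
    ∃ l ∈ L, B = A.map (MulAut.conj l).toMonoidHom := by
  obtain ⟨l, hl⟩ := h (A.subgroupOf L) (B.subgroupOf L) (by
    rw [Nat.card_congr (Subgroup.subgroupOfEquivOfLe hA).toEquiv,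
      Nat.card_congr (Subgroup.subgroupOfEquivOfLe hB).toEquiv, hAB])
  refine ⟨l.1, l.2, ?_⟩
  have h2 := congrArg (Subgroup.map L.subtype) hl
  rw [Subgroup.map_subgroupOf_eq_of_le hB] at h2
  rw [h2, Subgroup.map_map]
  conv_rhs => rw [← Subgroup.map_subgroupOf_eq_of_le hA, Subgroup.map_map]
  congr 1

end Cfsg.Agent.Lib.H31EqSubCj
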