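import Mathlib
import Cfsg.Agent.Lib.H31EqDefs


set_option autoImplicit false
open Pointwise

namespace Cfsg.Agent.Lib.H31EqSubCyc

open Cfsg.Agent.Lib.H31EqDefs

universe u

theorem sub_cyclic {G : Type u} [Group G] [Finite G] (r : ℕ) (hC : PC r G) (L : Subgroup G)
    (hL : ¬ r ∣ Nat.card L) : ∀ p : ℕ, p.Prime → ∀ P : Sylow p L, IsCyclic P := by
  intro p hp P
  have : Fact p.Prime := ⟨hp⟩
  by_cases hpr : p = r
  · subst hpr
    obtain ⟨k, hk⟩ := P.isPGroup'.exists_card_eq
    have hdvd : Nat.card (P : Subgroup L) ∣ Nat.card L := Subgroup.card_subgroup_dvd_card _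
    have hk0 : k = 0 := by
      by_contra hk0
      apply hL
      exact (dvd_pow_self p hk0).trans (hk ▸ hdvd)
    rw [hk0, pow_zero] at hk
    have hsub : Subsingleton (P : Subgroup L) := (Finite.card_le_one_iff_subsingleton).mp hk.le
    exact isCyclic_of_subsingleton
  · set P₀ := (P : Subgroup L).map L.subtype with hP₀
    have hP₀p : IsPGroup p P₀ := P.isPGroup'.map _
    obtain ⟨Q, hQ⟩ := hP₀p.exists_le_sylow
    have hQc : IsCyclic Q := hC p hp hpr Q
    have hc1 : IsCyclic (P₀.subgroupOf (Q : Subgroup G)) := Subgroup.isCyclic _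
    have e1 : (P₀.subgroupOf (Q : Subgroup G)) ≃* P₀ := Subgroup.subgroupOfEquivOfLe hQ
    have e2 : (P : Subgroup L) ≃* P₀ :=
      Subgroup.equivMapOfInjective _ L.subtype L.subtype_injective
    exact isCyclic_of_surjective (e1.trans e2.symm) (e1.trans e2.symm).surjective

end Cfsg.Agent.Lib.H31EqSubCyc
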