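import Mathlib
import Cfsg.Agent.Lib.H31EqDefs
import Cfsg.Agent.Lib.H31EqHallCommon
import Cfsg.Agent.Lib.H31EqSubCyc
import Cfsg.Agent.Lib.H31EqSubCj
import Cfsg.Agent.Lib.H31EqPdCyc

set_option autoImplicit false
open Pointwise

namespace Cfsg.Agent.Lib.H31EqRConj

open Cfsg.Agent.Lib.H31EqDefs

universe u

open Cfsg.Agent.Lib.H31EqHallCommon Cfsg.Agent.Lib.H31EqSubCyc Cfsg.Agent.Lib.H31EqSubCj
  Cfsg.Agent.Lib.H31EqPdCyc

/-- ASSEMBLY: `r'`-subgroups of equal order of `M` are conjugate in `M`. -/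
theorem rprime_conj {G : Type u} [Group G] [Finite G] [Group.IsSolvable G] (r : ℕ) (hr : r.Prime)
    (hrG : r ∣ Nat.card G) (hC : PC r G)
    (ih : ∀ L : Subgroup G, Nat.card L < Nat.card G → PD L → PC r L → AllCj L)
    (M A B : Subgroup G) (hA : A ≤ M) (hB : B ≤ M) (hAB : Nat.card A = Nat.card B)
    (hAr : ¬ r ∣ Nat.card A) :
    ∃ m ∈ M, B = A.map (MulAut.conj m).toMonoidHom := by
  obtain ⟨L, hLM, hLr, m, hm, hAL, hBL⟩ := hall_common r hr M A B hA hB hAr (hAB ▸ hAr)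
  have hcyc := sub_cyclic r hC L hLr
  have hlt : Nat.card L < Nat.card G := by
    refine lt_of_le_of_ne (Subgroup.card_le_card_group L) ?_
    intro h
    exact hLr (h ▸ hrG)
  have hall : AllCj L := ih L hlt (pd_of_cyclic hcyc) (fun p hp _ P => hcyc p hp P)
  obtain ⟨l, hl, hB'⟩ := sub_cj L hall _ B hAL hBL (by rw [card_map_conj, hAB])
  refine ⟨l * m, M.mul_mem (hLM hl) hm, ?_⟩
  rw [hB', map_conj_mul]

end Cfsg.Agent.Lib.H31EqRConj
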