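import Mathlib
import Cfsg.Agent.Lib.H31EqDefs
import Cfsg.Agent.Lib.H31EqRConj
import Cfsg.Agent.Lib.H31EqCardInf
import Cfsg.Agent.Lib.H31EqExCompl

set_option autoImplicit false
open Pointwise

namespace Cfsg.Agent.Lib.H31EqCase2

open Cfsg.Agent.Lib.H31EqDefs

universe u

open Cfsg.Agent.Lib.H31EqRConj Cfsg.Agent.Lib.H31EqCardInf Cfsg.Agent.Lib.H31EqExCompl

/-- ASSEMBLY: the case of a normal abelian Sylow `r`-subgroup. -/
theorem case2 {G : Type u} [Group G] [Finite G] [Group.IsSolvable G] (r : ℕ) (hr : r.Prime)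
    (hD : PD G) (hC : PC r G) (N : Subgroup G) [N.Normal] (hN1 : N ≠ ⊥) (hNr : IsPGroup r N)
    (hsyl : ¬ r ∣ N.index)
    (ih : ∀ L : Subgroup G, Nat.card L < Nat.card G → PD L → PC r L → AllCj L) : AllCj G := by
  intro H K hHK
  haveI : Fact r.Prime := ⟨hr⟩
  have hrG : r ∣ Nat.card G := by
    obtain ⟨a, ha⟩ := hNr.exists_card_eq
    have ha0 : a ≠ 0 := by
      rintro rfl
      rw [pow_zero] at ha
      exact hN1 (Subgroup.card_eq_one.1 ha)
    exact (dvd_pow_self r ha0).trans (ha ▸ Subgroup.card_subgroup_dvd_card N)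
  obtain ⟨c1, -⟩ := card_inf_eq r hr N hNr hsyl H K hHK
  obtain ⟨g, hg⟩ := hD r hr (H ⊓ N) (K ⊓ N) (hNr.to_le inf_le_right) (hNr.to_le inf_le_right) c1
  set H1 := H.map (MulAut.conj g).toMonoidHom with hH1
  have hH1N : H1 ⊓ N = K ⊓ N := by
    rw [hg, Subgroup.map_inf _ _ _ (MulAut.conj g).injective, map_conj_normal N]
  refine Cj.trans ⟨g, rfl⟩ ?_
  have hcard1 : Nat.card H1 = Nat.card K := by rw [hH1, card_map_conj, hHK]
  obtain ⟨-, c2⟩ := card_inf_eq r hr N hNr hsyl H1 K hcard1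
  obtain ⟨A, hA1, hA2, hA3, hA4⟩ := exists_compl r hr N hNr hsyl H1
  obtain ⟨B, hB1, hB2, hB3, -⟩ := exists_compl r hr N hNr hsyl K
  set N0 := K ⊓ N with hN0
  have hKn : K ≤ Subgroup.normalizer (N0 : Set G) := by
    intro k hk
    rw [Subgroup.mem_normalizer_iff]
    intro x
    constructor
    · rintro ⟨h1, h2⟩
      exact ⟨K.mul_mem (K.mul_mem hk h1) (K.inv_mem hk), Subgroup.Normal.conj_mem inferInstance x h2 k⟩
    · rintro ⟨h1, h2⟩
      refine ⟨?_, ?_⟩
      · have := K.mul_mem (K.mul_mem (K.inv_mem hk) h1) hk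
        simpa [mul_assoc] using this
      · have := Subgroup.Normal.conj_mem (inferInstance : N.Normal) _ h2 k⁻¹
        simpa [mul_assoc] using this
  have hHn : H1 ≤ Subgroup.normalizer (N0 : Set G) := by
    intro k hk
    rw [← hH1N, Subgroup.mem_normalizer_iff]
    intro x
    constructor
    · rintro ⟨h1, h2⟩
      exact ⟨H1.mul_mem (H1.mul_mem hk h1) (H1.inv_mem hk), Subgroup.Normal.conj_mem inferInstance x h2 k⟩
    · rintro ⟨h1, h2⟩
      refine ⟨?_, ?_⟩
      · have := H1.mul_mem (H1.mul_mem (H1.inv_mem hk) h1) hk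
        simpa [mul_assoc] using this
      · have := Subgroup.Normal.conj_mem (inferInstance : N.Normal) _ h2 k⁻¹
        simpa [mul_assoc] using this
  obtain ⟨m, hm, hBA⟩ := rprime_conj r hr hrG hC ih (Subgroup.normalizer (N0 : Set G)) A B
    (hA1.trans hHn) (hB1.trans hKn) (by rw [hA3, hB3, c2]) hA4
  refine ⟨m, ?_⟩
  have hN0m : N0.map (MulAut.conj m).toMonoidHom = N0 := by
    ext x
    simp only [Subgroup.mem_map, MulEquiv.coe_toMonoidHom, MulAut.conj_apply]
    constructor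
    · rintro ⟨y, hy, rfl⟩
      exact (Subgroup.mem_normalizer_iff.1 hm y).1 hy
    · intro hx
      refine ⟨m⁻¹ * x * m, ?_, by group⟩
      rw [Subgroup.mem_normalizer_iff.1 hm]
      simpa [mul_assoc] using hx
  show K = H1.map (MulAut.conj m).toMonoidHom
  rw [← hA2, Subgroup.map_sup, hH1N, hN0m, ← hBA, hB2]

end Cfsg.Agent.Lib.H31EqCase2
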