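import Mathlib
import Cfsg.Agent.Lib.H31EqDefs


set_option autoImplicit false
open Pointwise

namespace Cfsg.Agent.Lib.H31EqPcQuot

open Cfsg.Agent.Lib.H31EqDefs

universe u

theorem pc_quot {G : Type u} [Group G] [Finite G] (N : Subgroup G) [N.Normal] (r : ℕ) (hC : PC r G) :
    PC r (G ⧸ N) := by
  intro p hp hpr Q
  have : Fact p.Prime := ⟨hp⟩
  obtain ⟨P⟩ : Nonempty (Sylow p G) := inferInstance
  have hPc : IsCyclic P := hC p hp hpr P
  let Q' : Sylow p (G ⧸ N) := P.mapSurjective (QuotientGroup.mk'_surjective N)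
  have hQ'c : IsCyclic Q' := by
    have hs : Function.Surjective ((QuotientGroup.mk' N).subgroupMap (P : Subgroup G)) :=
      MonoidHom.subgroupMap_surjective _ _
    exact isCyclic_of_surjective _ hs
  exact isCyclic_of_surjective (Sylow.equiv Q' Q) (Sylow.equiv Q' Q).surjective

end Cfsg.Agent.Lib.H31EqPcQuot
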