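import Mathlib
import Cfsg.Agent.Lib.H31EqDefs
import Cfsg.Agent.Lib.Helper12Hall

set_option autoImplicit false
open Pointwise

namespace Cfsg.Agent.Lib.H31EqPdQuot

open Cfsg.Agent.Lib.H31EqDefs

universe u

theorem lift_pgroup {G : Type u} [Group G] [Finite G] (N : Subgroup G) [N.Normal] (p : ℕ)
    [Fact p.Prime] (A : Subgroup (G ⧸ N)) (hA : IsPGroup p A) :
    ∃ A0 : Subgroup G, IsPGroup p A0 ∧ A0.map (QuotientGroup.mk' N) = A ∧
      Nat.card A0 = p ^ (Nat.card N * Nat.card A).factorization p := by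
  set X := A.comap (QuotientGroup.mk' N) with hX
  obtain ⟨P⟩ : Nonempty (Sylow p X) := inferInstance
  refine ⟨(P : Subgroup X).map X.subtype, P.2.map _, ?_, ?_⟩
  · have hf : Function.Surjective ((QuotientGroup.mk' N).subgroupComap A) :=
      MonoidHom.subgroupComap_surjective_of_surjective _ _ (QuotientGroup.mk'_surjective N)
    have htop : ((P.mapSurjective hf : Sylow p A) : Subgroup A) = ⊤ :=
      ((P.mapSurjective hf).is_maximal' (IsPGroup.of_equiv hA Subgroup.topEquiv.symm) le_top).symm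
    rw [Sylow.coe_mapSurjective] at htop
    apply le_antisymm
    · rintro _ ⟨_, ⟨x, _, rfl⟩, rfl⟩
      exact x.2
    · intro a ha
      have : (⟨a, ha⟩ : A) ∈ (P : Subgroup X).map ((QuotientGroup.mk' N).subgroupComap A) := by
        rw [htop]; trivial
      obtain ⟨x, hx, hxa⟩ := this
      refine ⟨(x : G), ⟨x, hx, rfl⟩, ?_⟩
      exact congrArg Subtype.val hxa
  · rw [Subgroup.card_map_of_injective X.subtype_injective, Sylow.card_eq_multiplicity,
      Cfsg.Agent.Lib.Helper12Hall.card_comap_mk']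

theorem pd_quot {G : Type u} [Group G] [Finite G] (N : Subgroup G) [N.Normal] (hD : PD G) :
    PD (G ⧸ N) := by
  intro p hp A B hA hB hAB
  haveI : Fact p.Prime := ⟨hp⟩
  obtain ⟨A0, hA0, hA1, hA2⟩ := lift_pgroup N p A hA
  obtain ⟨B0, hB0, hB1, hB2⟩ := lift_pgroup N p B hB
  obtain ⟨g, hg⟩ := hD p hp A0 B0 hA0 hB0 (by rw [hA2, hB2, hAB])
  refine ⟨QuotientGroup.mk' N g, ?_⟩
  rw [← hA1, ← hB1, hg, Subgroup.map_map, Subgroup.map_map]
  congr 1

end Cfsg.Agent.Lib.H31EqPdQuot
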