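import Mathlib
import Cfsg.Agent.Lib.H31EqDefs
import Cfsg.Agent.Lib.H31EqFactA

set_option autoImplicit false
open Pointwise

namespace Cfsg.Agent.Lib.H31EqSylBig

open Cfsg.Agent.Lib.H31EqDefs

universe u

theorem sylow_of_big {G : Type u} [Group G] [Finite G] (hD : PD G) (r : ℕ) (hr : r.Prime)
    (N : Subgroup G) [N.Normal] (hexp : ∀ a ∈ N, a ^ r = 1) (m : ℕ) (hm : 2 ≤ m)
    (hcard : Nat.card N = r ^ m) : ¬ r ∣ N.index := by
  intro hdvd
  haveI : Fact r.Prime := ⟨hr⟩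
  rw [Subgroup.index_eq_card] at hdvd
  obtain ⟨gbar, hg⟩ := exists_prime_orderOf_dvd_card' r hdvd
  obtain ⟨g, rfl⟩ := QuotientGroup.mk_surjective gbar
  have hgN : g ∉ N := by
    intro h
    have h1 : (QuotientGroup.mk g : G ⧸ N) = 1 := (QuotientGroup.eq_one_iff g).2 h
    rw [h1, orderOf_one] at hg
    exact hr.one_lt.ne hg
  have hgr : g ^ r ∈ N := by
    rw [← QuotientGroup.eq_one_iff, QuotientGroup.mk_pow, ← hg]
    exact pow_orderOf_eq_one _
  have hg2 : g ^ (r ^ 2) = 1 := by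
    rw [pow_two, pow_mul]
    exact hexp _ hgr
  obtain ⟨k, hk, hk2⟩ := (Nat.dvd_prime_pow hr).1 (orderOf_dvd_of_pow_eq_one hg2)
  have hz : Nat.card (Subgroup.zpowers g) = r ^ k := by rw [Nat.card_zpowers, hk2]
  have hNp : IsPGroup r N := IsPGroup.of_card hcard
  have hle : Subgroup.zpowers g ≤ N :=
    Cfsg.Agent.Lib.H31EqFactA.factA hD r hr N hNp _ (IsPGroup.of_card hz) (by
      rw [hz, hcard]
      exact Nat.pow_le_pow_right hr.pos (hk.trans hm))
  exact hgN (hle (Subgroup.mem_zpowers g))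

end Cfsg.Agent.Lib.H31EqSylBig
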