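import Mathlib
import Cfsg.Prelude.Def_Solvable
import Cfsg.Prelude.Def_Transfer

set_option autoImplicit false

/-! # Vocabulary of project 4006 = OC (row S4006: groups with element orders exactly 1, 2, 3, 4); plan: notes/helper69/plans/S4006.md -/

namespace Cfsg.Agent.Lib.H32OcDefs

open scoped commutatorElement

/-- all element orders are at most 4 -/
def O4 (G : Type*) [Group G] : Prop := ∀ g : G, orderOf g ≤ 4

/-- `qq s n = (s n s⁻¹) n` -/
abbrev qq {G : Type*} [Group G] (s n : G) : G := s * n * s⁻¹ * n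

/-- 2-Engel: every element commutes with its conjugates -/
def Eng (N : Type*) [Group N] : Prop := ∀ x g : N, x * (g * x * g⁻¹) = g * x * g⁻¹ * x

/-- the `S₃` configuration: `N` a normal 2-subgroup, `y` of order 3 fixed point free on `N`, `t` an involution inverting `y`, all elements of
`t⟨y⟩N` have 4-th power 1 -/
structure Cfg {G : Type*} [Group G] (N : Subgroup G) (y t : G) : Prop where
  nN : N.Normal
  y3 : y * y * y = 1
  t2 : t * t = 1
  ty : t * y * t⁻¹ = y⁻¹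
  fix : ∀ n ∈ N, y * n = n * y → n = 1
  n4 : ∀ n ∈ N, n ^ 4 = 1
  cop : (Nat.card N).Coprime 3
  four : ∀ s : G, (s = t ∨ s = t * y ∨ s = t * y * y) → ∀ n ∈ N, (s * n) ^ 4 = 1

/-- the derived data -/
structure Dat {G : Type*} [Group G] (N : Subgroup G) (y t : G) : Prop where
  nN : N.Normal
  y3 : y * y * y = 1
  t2 : t * t = 1
  ty : t * y * t⁻¹ = y⁻¹
  fix : ∀ n ∈ N, y * n = n * y → n = 1
  n4 : ∀ n ∈ N, n ^ 4 = 1
  I1 : ∀ n ∈ N, n * (y * n * y⁻¹) * (y * y * n * (y * y)⁻¹) = 1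
  I2 : ∀ s : G, (s = t ∨ s = t * y ∨ s = t * y * y) → ∀ n ∈ N, qq s n * qq s n = 1
  cl : ∀ a ∈ N, ∀ b ∈ N, ∀ d ∈ N, ⁅a, b⁆ * d = d * ⁅a, b⁆

/-- the elements `w (qq t n) w⁻¹`, `w ∈ {1, y, y y}`, `n ∈ N` -/
def X {G : Type*} [Group G] (N : Subgroup G) (y t x : G) : Prop :=
  ∃ w : G, (w = 1 ∨ w = y ∨ w = y * y) ∧ ∃ n ∈ N, x = w * qq t n * w⁻¹

end Cfsg.Agent.Lib.H32OcDefs
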