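import Mathlib
import Cfsg.Agent.Lib.H32OcDefs
import Cfsg.Agent.Lib.Helper25Quat

set_option autoImplicit false

namespace Cfsg.Agent.Lib.H32OcA5b

open Cfsg Cfsg.Agent.Lib.H32OcDefs
open scoped commutatorElement

variable {G : Type*} [Group G]

/-! **A5b**: recognition of `Q₈` (from the landed recogniser `Helper25Quat.nonempty_equiv`). -/

theorem q8_of_gens {T : Type*} [Group T] [Finite T] (hc : Nat.card T = 8) {x y : T} (hx : orderOf x = 4)
    (hy : y * y = x * x) (hxy : y * x * y⁻¹ = x⁻¹) (hyx : y ∉ Subgroup.zpowers x) :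
    Nonempty (T ≃* QuaternionGroup 2) := by
  obtain ⟨e⟩ := Cfsg.Agent.Lib.Helper25Quat.nonempty_equiv (n := 2) (A := x) (B := y) (by rw [hx])
    (by rw [hy, pow_two]) hxy hyx ⊤ (by rw [Subgroup.card_top, hc]) (Subgroup.mem_top _)
    (Subgroup.mem_top _)
  exact ⟨Subgroup.topEquiv.symm.trans e⟩

end Cfsg.Agent.Lib.H32OcA5b
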