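import Cfsg.Agent.Lib.H37WkDefs

set_option autoImplicit false

namespace Cfsg.Agent.Lib.H37WkLat

open Cfsg Cfsg.FusionSystem Cfsg.Agent.Lib.Helper87Fusion Cfsg.Agent.Lib.H37WkDefs

/-- LATTICE LEMMA (pure group theory, no fusion systems). -/
theorem lat {Ω : Type*} [Group Ω] {S : Subgroup Ω} {Lam : Subgroup Ω → Prop} (hL : Lat S Lam)
    {V V' Q P : Subgroup Ω} (hV : Lam V) (hV' : Lam V')
    (hcov : ∀ X, Lam X → V ≤ X → X ≤ V' → X = V ∨ X = V')
    (hVQ : V < Q) (hQV' : Q < V') (hP : Lam P) (h1 : Lam (Q ⊔ P)) (h2 : Lam (Q ⊓ P)) : False := by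
  have hVV' : V ≤ V' := hVQ.le.trans hQV'.le
  have hX : Lam ((P ⊓ V') ⊔ V) := hL.sup _ _ (hL.inf _ _ hP hV') hV
  rcases hcov _ hX le_sup_right (sup_le inf_le_right hVV') with hXV | hXV'
  · -- `P ⊓ V' ≤ V`
    have hPV : P ⊓ V' ≤ V := by rw [← hXV]; exact le_sup_left
    have hQeq : (Q ⊔ P) ⊓ V' = Q := by
      apply le_antisymm
      · intro x hx
        obtain ⟨hx1, hx2⟩ := Subgroup.mem_inf.1 hx
        obtain ⟨q, hq, a, ha, rfl⟩ := mem_sup_right
          (fun q hq b hb => hL.conj P hP q (hL.le V' hV' (hQV'.le hq)) b hb) hx1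
        have haV' : a ∈ V' := by
          have : a = q⁻¹ * (q * a) := by group
          rw [this]
          exact V'.mul_mem (V'.inv_mem (hQV'.le hq)) hx2
        exact Q.mul_mem hq (hVQ.le (hPV (Subgroup.mem_inf.2 ⟨ha, haV'⟩)))
      · exact le_inf le_sup_left hQV'.le
    have hQ : Lam Q := by
      have := hL.inf _ _ h1 hV'
      rwa [hQeq] at this
    rcases hcov Q hQ hVQ.le hQV'.le with h | h
    · exact hVQ.ne h.symm
    · exact hQV'.ne h
  · have hY : Lam ((Q ⊓ P) ⊔ V) := hL.sup _ _ h2 hV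
    have hYQ : (Q ⊓ P) ⊔ V ≤ Q := sup_le inf_le_left hVQ.le
    have hQPV : Q ⊓ P ≤ V := by
      rcases hcov _ hY le_sup_right (hYQ.trans hQV'.le) with h | h
      · rw [← h]; exact le_sup_left
      · exfalso
        rw [h] at hYQ
        exact absurd hQV' (not_lt_of_ge hYQ)
    have hQV : Q ≤ V := by
      intro x hx
      have hx' : x ∈ (P ⊓ V') ⊔ V := by rw [hXV']; exact hQV'.le hx
      obtain ⟨a, ha, v, hv, rfl⟩ := mem_sup_right
        (fun a ha b hb => hL.conj V hV a (hL.le P hP (Subgroup.mem_inf.1 ha).1) b hb) hx'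
      have haQ : a ∈ Q := by
        have : a = (a * v) * v⁻¹ := by group
        rw [this]
        exact Q.mul_mem hx (Q.inv_mem (hVQ.le hv))
      exact V.mul_mem (hQPV (Subgroup.mem_inf.2 ⟨haQ, (Subgroup.mem_inf.1 ha).1⟩)) hv
    exact absurd hVQ (not_lt_of_ge hQV)

end Cfsg.Agent.Lib.H37WkLat
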