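import Cfsg.Agent.Lib.H37WkDefs

set_option autoImplicit false

namespace Cfsg.Agent.Lib.H37WkMid

/-- PURE MATHLIB.  Subgroups of every intermediate order in a finite `p`-group. -/
theorem exists_mid {Ω : Type*} [Group Ω] {p : ℕ} [hp : Fact p.Prime] {A B : Subgroup Ω} [Finite B]
    (hB : IsPGroup p B) (hAB : A ≤ B) {k : ℕ} (h1 : Nat.card A ≤ p ^ k) (h2 : p ^ k ≤ Nat.card B) :
    ∃ Q : Subgroup Ω, A ≤ Q ∧ Q ≤ B ∧ Nat.card Q = p ^ k := by
  obtain ⟨m, hm⟩ := IsPGroup.iff_card.1 hB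
  have hA' : IsPGroup p (A.subgroupOf B) := hB.to_subgroup _
  obtain ⟨n, hn⟩ := IsPGroup.iff_card.1 hA'
  have hcardA : Nat.card (A.subgroupOf B) = Nat.card A :=
    Nat.card_congr (Subgroup.subgroupOfEquivOfLe hAB).toEquiv
  have hnk : n ≤ k := by
    rw [← hcardA, hn] at h1
    exact (Nat.pow_le_pow_iff_right hp.out.one_lt).1 h1
  have hkm : k ≤ m := by
    rw [hm] at h2
    exact (Nat.pow_le_pow_iff_right hp.out.one_lt).1 h2
  have hdvd : p ^ k ∣ Nat.card B := by rw [hm]; exact pow_dvd_pow p hkm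
  obtain ⟨K, hK, hAK⟩ := Sylow.exists_subgroup_card_pow_prime_le p hdvd (A.subgroupOf B) hn hnk
  refine ⟨K.map B.subtype, ?_, ?_, ?_⟩
  · intro a ha
    exact ⟨⟨a, hAB ha⟩, hAK (Subgroup.mem_subgroupOf.2 ha), rfl⟩
  · rintro _ ⟨y, _, rfl⟩
    exact y.2
  · rw [← hK]
    exact (Nat.card_congr (K.equivMapOfInjective B.subtype B.subtype_injective).toEquiv).symm

end Cfsg.Agent.Lib.H37WkMid
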