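import Cfsg.Agent.Lib.H37WkDefs
import Cfsg.Agent.Lib.H37WkLat
import Cfsg.Agent.Lib.H37WkMid

set_option autoImplicit false

namespace Cfsg.Agent.Lib.H37WkA

open Cfsg Cfsg.FusionSystem Cfsg.Agent.Lib.Helper87Fusion Cfsg.Agent.Lib.H37WkDefs

private theorem fin_of_le {Ω : Type*} [Group Ω] {S A : Subgroup Ω} [Finite S] (h : A ≤ S) :
    Finite A :=
  Finite.of_injective (Subgroup.inclusion h) (Subgroup.inclusion_injective h)

private theorem card_lt {Ω : Type*} [Group Ω] {A B : Subgroup Ω} [Finite B] (h : A < B) :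
    Nat.card A < Nat.card B := by
  have hle : Nat.card A ≤ Nat.card B := Subgroup.card_le_of_le h.le
  rcases hle.lt_or_eq with h1 | h1
  · exact h1
  · exact absurd (Subgroup.eq_of_le_of_card_ge h.le h1.ge) h.ne

/-- (A) -/
theorem exists_card {Ω : Type*} [Group Ω] {S : Subgroup Ω} [Finite S] {p : ℕ} [Fact p.Prime]
    (hS : IsPGroup p S) {Lam : Subgroup Ω → Prop} (hL : Lat S Lam) (hbot : Lam ⊥) {k : ℕ}
    (hWE : ∀ Q : Subgroup Ω, Q ≤ S → Nat.card Q = p ^ k → ∃ P, Lam P ∧ Lam (Q ⊔ P) ∧ Lam (Q ⊓ P))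
    {W' : Subgroup Ω} (hW' : Lam W') (hk : p ^ k ≤ Nat.card W') :
    ∃ H : Subgroup Ω, Lam H ∧ H ≤ W' ∧ Nat.card H = p ^ k := by
  classical
  have hp : 0 < p ^ k := pow_pos (Fact.out : p.Prime).pos k
  -- maximal X
  let Pn : ℕ → Prop := fun n => ∃ X : Subgroup Ω, Lam X ∧ X ≤ W' ∧ Nat.card X ≤ p ^ k ∧ Nat.card X = n
  have h1 : Pn 1 := ⟨⊥, hbot, bot_le, by simp only [Subgroup.card_bot]; exact hp, by simp⟩
  have hg : Pn (Nat.findGreatest Pn (p ^ k)) := Nat.findGreatest_spec (m := 1) hp h1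
  obtain ⟨X, hX, hXW, hXk, hXn⟩ := hg
  have hmax : ∀ Y : Subgroup Ω, Lam Y → Y ≤ W' → Nat.card Y ≤ p ^ k → Nat.card Y ≤ Nat.card X := by
    intro Y hY hYW hYk
    rw [hXn]
    exact Nat.le_findGreatest hYk ⟨Y, hY, hYW, hYk, rfl⟩
  rcases hXk.lt_or_eq with hlt | heq
  swap
  · exact ⟨X, hX, hXW, heq⟩
  exfalso
  haveI : Finite W' := fin_of_le (hL.le _ hW')
  have hXW' : X < W' := by
    refine lt_of_le_of_ne hXW ?_
    rintro rfl
    omega
  let Pm : ℕ → Prop := fun n => ∃ V : Subgroup Ω, Lam V ∧ X < V ∧ V ≤ W' ∧ Nat.card V = n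
  have hexm : ∃ n, Pm n := ⟨_, W', hW', hXW', le_rfl, rfl⟩
  obtain ⟨V', hV', hXV', hV'W, hV'n⟩ := Nat.find_spec hexm
  have hmin : ∀ Y : Subgroup Ω, Lam Y → X < Y → Y ≤ W' → Nat.card V' ≤ Nat.card Y := by
    intro Y hY hXY hYW
    rw [hV'n]
    exact Nat.find_min' hexm ⟨Y, hY, hXY, hYW, rfl⟩
  haveI : Finite V' := fin_of_le (hL.le _ hV')
  have hV'k : p ^ k < Nat.card V' := by
    by_contra hcon
    have := hmax V' hV' hV'W (not_lt.1 hcon)
    have h2 := card_lt hXV'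
    omega
  have hcov : ∀ Y, Lam Y → X ≤ Y → Y ≤ V' → Y = X ∨ Y = V' := by
    intro Y hY hXY hYV
    by_cases hYX : Y = X
    · exact Or.inl hYX
    · right
      have hlt' : X < Y := lt_of_le_of_ne hXY (Ne.symm hYX)
      exact Subgroup.eq_of_le_of_card_ge hYV (hmin Y hY hlt' (hYV.trans hV'W))
  have hV'p : IsPGroup p V' := hS.to_le (hL.le _ hV')
  obtain ⟨Q, hXQ, hQV, hQk⟩ := H37WkMid.exists_mid hV'p hXV'.le hlt.le hV'k.le
  have hXQ' : X < Q := by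
    refine lt_of_le_of_ne hXQ ?_
    rintro rfl
    omega
  have hQV' : Q < V' := by
    refine lt_of_le_of_ne hQV ?_
    rintro rfl
    omega
  obtain ⟨P, hP, hP1, hP2⟩ := hWE Q (hQV.trans (hL.le _ hV')) hQk
  exact H37WkLat.lat hL hX hV' hcov hXQ' hQV' hP hP1 hP2

end Cfsg.Agent.Lib.H37WkA
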