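import Cfsg.Agent.Lib.H37WkDefs
import Cfsg.Agent.Lib.Helper87Fusion3
import Cfsg.Agent.Lib.Helper87NormSys
import Cfsg.Agent.Lib.Helper89Fusion

set_option autoImplicit false

namespace Cfsg.Agent.Lib.H37WkB1

open Cfsg Cfsg.FusionSystem Cfsg.Agent.Lib.Helper87Fusion Cfsg.Agent.Lib.H37WkDefs

/-- (B).  `H` is fully normalized: `⟨hH.1, fun Q hQ => ..⟩`, where `F.IsConj H Q` gives (`isConj_iff`) `f`, `IsMap F H f`, `f '' H = Q`, and `Helper89Fusion.StronglyClosed.image_eq hH hf le_rfl : f '' H = H`, so `Q = H` (`SetLike.coe_injective`).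
`N := (Helper87NormSys.normData F H hH.1).toFusion`, `hN := Helper87NormSys.normData_isNormalizerSystem F H hH.1`; `hNI H _ hn N hN P : N.Hom P = (innerFusionSystem _).Hom P`.
Let `H ≤ P`, `IsMap F P f`.  `Helper87Fusion3.isMap_normalizer_iff hN : IsMap N P f ↔ IsMap F P f ∧ P ≤ normalizerIn S H ∧ (∀ x ∈ P, f x ∈ normalizerIn S H) ∧ ∃ f', IsMap F (P ⊔ H) f' ∧ (∀ x ∈ P, f' x = f x) ∧ f' '' H = H`:
every `s ∈ S` is in `normalizerIn S H = S ⊓ normalizer H` (`Helper87Fusion3.StronglyClosed_conj_mem hH` for `s` and `s⁻¹`, `Helper86Fusion.mem_normalizer_of_conj_mem`), `hf.le : P ≤ S`, `hf.mem : f x ∈ S`; `f' := f` (`sup_eq_left.2 hHP ▸ hf`, or `hf.restrict (le_of_eq ..)`), `StronglyClosed.image_eq hH hf hHP`.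
So `IsMap N P f`: `⟨φ, hφ, hφf⟩`, `hφ ∈ inner.Hom P = {φ | P ≤ _ ∧ ∃ g ∈ normalizerIn S H, ∀ x : P, φ x = g * x * g⁻¹}`; `g ∈ S`. -/
theorem innAbove {Ω : Type*} [Group Ω] {S : Subgroup Ω} [Finite S] (F : FusionSystem S) {n : ℕ} (hNI : NI F n)
    {H : Subgroup Ω} (hH : F.StronglyClosed H) (hn : Nat.card H = n) : InnAbove F H := by
  have hfn : F.IsFullyNormalized H := by
    refine ⟨hH.1, fun Q hQ => ?_⟩
    obtain ⟨f, hf, hfQ⟩ := isConj_iff.1 hQ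
    have h1 := Cfsg.Agent.Lib.Helper89Fusion.StronglyClosed.image_eq hH hf le_rfl
    have h2 : Q = H := SetLike.coe_injective (by rw [← hfQ, h1])
    rw [h2]
  have hN := Cfsg.Agent.Lib.Helper87NormSys.normData_isNormalizerSystem F H hH.1
  have hinner := hNI H hfn hn _ hN
  intro P f hHP hf
  have hSN : ∀ s ∈ S, s ∈ normalizerIn S H := by
    intro s hs
    rw [mem_normalizerIn]
    refine ⟨hs, fun x => ⟨fun hx => Cfsg.Agent.Lib.Helper87Fusion3.StronglyClosed_conj_mem hH hs hx,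
      fun hx => ?_⟩⟩
    have h1 := Cfsg.Agent.Lib.Helper87Fusion3.StronglyClosed_conj_mem hH (S.inv_mem hs) hx
    have e : s⁻¹ * (s * x * s⁻¹) * s⁻¹⁻¹ = x := by group
    rwa [e] at h1
  have hmap : IsMap ((Cfsg.Agent.Lib.Helper87NormSys.normData F H hH.1).toFusion) P f := by
    rw [Cfsg.Agent.Lib.Helper87Fusion3.isMap_normalizer_iff hN]
    refine ⟨hf, fun x hx => hSN x (hf.le hx), fun x hx => hSN _ (hf.mem hx), f, ?_,
      fun _ _ => rfl, ?_⟩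
    · rw [sup_eq_left.2 hHP]; exact hf
    · exact Cfsg.Agent.Lib.Helper89Fusion.StronglyClosed.image_eq hH hf hHP
  obtain ⟨φ, hφ, hφf⟩ := hmap
  rw [hinner P] at hφ
  obtain ⟨-, g, hg, hgφ⟩ := hφ
  exact ⟨g, normalizerIn_le S H hg, fun x hx => by rw [← hφf ⟨x, hx⟩, hgφ]⟩

end Cfsg.Agent.Lib.H37WkB1
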