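import Mathlib
import Cfsg.Prelude.Def_FusionComponents
import Cfsg.Agent.Lib.Helper87Fusion

/-! Vocabulary for row S5271 (project 5271 = WK): nilpotency criterion via weakly embedded subgroups.
Paper proof: notes/helper37/S5271short.md -/

set_option autoImplicit false

namespace Cfsg.Agent.Lib.H37WkDefs

open Cfsg Cfsg.FusionSystem Cfsg.Agent.Lib.Helper87Fusion

variable {Ω : Type*} [Group Ω] {S : Subgroup Ω}

/-- every subgroup of `S` of order `n` is weakly embedded in `F` -/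
def WE (F : FusionSystem S) (n : ℕ) : Prop :=
  ∀ Q : Subgroup Ω, Q ≤ S → Nat.card ↥Q = n →
    ∃ P : Subgroup Ω, F.StronglyClosed P ∧ F.StronglyClosed (Q ⊔ P) ∧ F.StronglyClosed (Q ⊓ P)

/-- the normalizer systems of the fully normalized subgroups of order `n` are inner -/
def NI (F : FusionSystem S) (n : ℕ) : Prop :=
  ∀ H : Subgroup Ω, F.IsFullyNormalized H → Nat.card ↥H = n →
    ∀ N : FusionSystem (normalizerIn S H), F.IsNormalizerSystem H N →
      ∀ P : Subgroup Ω, N.Hom P = (innerFusionSystem (normalizerIn S H)).Hom P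

/-- all maps of `F` whose source contains `H` are conjugations by elements of `S` -/
def InnAbove (F : FusionSystem S) (H : Subgroup Ω) : Prop :=
  ∀ (P : Subgroup Ω) (f : Ω → Ω), H ≤ P → IsMap F P f → ∃ s ∈ S, ∀ x ∈ P, f x = s * x * s⁻¹

/-- an abstract "lattice of `S`-invariant subgroups of `S`" (in use: the strongly closed subgroups) -/
structure Lat (S : Subgroup Ω) (Lam : Subgroup Ω → Prop) : Prop where
  le : ∀ A, Lam A → A ≤ S
  conj : ∀ A, Lam A → ∀ s ∈ S, ∀ a ∈ A, s * a * s⁻¹ ∈ A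
  inf : ∀ A B, Lam A → Lam B → Lam (A ⊓ B)
  sup : ∀ A B, Lam A → Lam B → Lam (A ⊔ B)

/-- product decomposition in `A ⊔ B` when `A` normalizes `B` -/
theorem mem_sup_right {A B : Subgroup Ω} (h : ∀ a ∈ A, ∀ b ∈ B, a * b * a⁻¹ ∈ B) {x : Ω}
    (hx : x ∈ A ⊔ B) : ∃ a ∈ A, ∃ b ∈ B, x = a * b := by
  let AB : Subgroup Ω :=
    { carrier := {x | ∃ a ∈ A, ∃ b ∈ B, x = a * b}
      one_mem' := ⟨1, A.one_mem, 1, B.one_mem, by simp⟩
      mul_mem' := by
        rintro _ _ ⟨a, ha, b, hb, rfl⟩ ⟨a', ha', b', hb', rfl⟩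
        refine ⟨a * a', A.mul_mem ha ha', (a'⁻¹ * b * a'⁻¹⁻¹) * b',
          B.mul_mem (h _ (A.inv_mem ha') b hb) hb', ?_⟩
        group
      inv_mem' := by
        rintro _ ⟨a, ha, b, hb, rfl⟩
        refine ⟨a⁻¹, A.inv_mem ha, a * b⁻¹ * a⁻¹, h a ha _ (B.inv_mem hb), ?_⟩
        group }
  have hAB : A ⊔ B ≤ AB := by
    refine sup_le ?_ ?_
    · intro a ha
      exact ⟨a, ha, 1, B.one_mem, by simp⟩
    · intro b hb
      exact ⟨1, A.one_mem, b, hb, by simp⟩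
  exact hAB hx

/-- product decomposition in `A ⊔ B` when `B` normalizes `A` -/
theorem mem_sup_left {A B : Subgroup Ω} (h : ∀ b ∈ B, ∀ a ∈ A, b * a * b⁻¹ ∈ A) {x : Ω}
    (hx : x ∈ A ⊔ B) : ∃ a ∈ A, ∃ b ∈ B, x = a * b := by
  rw [sup_comm] at hx
  obtain ⟨b, hb, a, ha, rfl⟩ := mem_sup_right h hx
  exact ⟨b * a * b⁻¹, h b hb a ha, b, hb, by group⟩

end Cfsg.Agent.Lib.H37WkDefs
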