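import Cfsg.Agent.Lib.H37WkDefs
import Cfsg.Agent.Lib.H37WkMid

set_option autoImplicit false

namespace Cfsg.Agent.Lib.H37WkFin

open Cfsg Cfsg.FusionSystem Cfsg.Agent.Lib.Helper87Fusion Cfsg.Agent.Lib.H37WkDefs

/-- (4) (pure group theory).  All subgroups are `≤ S`: finite `p`-groups.  `Nat.card W = p ^ j`, `j < k`.  `W < (M ⊓ Y) ⊔ W =: U ≤ M`, so `p ^ (j+1) ≤ Nat.card U` (`Nat.card U = p ^ j'`, `j < j'`).
`H37WkMid.exists_mid` (`A := W`, `B := U`, exponent `j+1`): `Q1`, `W ≤ Q1 ≤ U`, `Nat.card Q1 = p ^ (j+1) ≤ p ^ k`; again (`A := Q1`, `B := M`, exponent `k`): `Q`, `Q1 ≤ Q ≤ M`, `Nat.card Q = p ^ k`.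
`Q1 ≠ W`: some `x ∈ Q1`, `x ∉ W`; `x ∈ U`: `x = y * w`, `y ∈ M ⊓ Y`, `w ∈ W` (`H37WkDefs.mem_sup_right`, `W` normalised by `S`: `hL.conj`); `y = x * w⁻¹ ∈ Q1 ≤ Q`, `y ∈ Y`, `y ∉ W`.
`hWE Q` gives `P`.  `Lam (P ⊔ W)`, `W ≤ P ⊔ W`.
* `¬ Y ≤ P ⊔ W`: `P ⊔ W = W` (`hmax`), `P ≤ W ≤ Q`, `Q ⊔ P = Q`, so `Lam Q`, `W ≤ Q`, `¬ Y ≤ Q` (`Q ≤ M`), `Q = W` by `hmax`: `p ^ k = Nat.card W < p ^ k`.
* `Y ≤ P ⊔ W`: `X := (Q ⊓ P) ⊔ W` is in `Lam`, `W ≤ X ≤ Q ≤ M`, so `¬ Y ≤ X`, `X = W`, `Q ⊓ P ≤ W`.  `y ∈ P ⊔ W`: `y = a * w`, `a ∈ P`, `w ∈ W`; `a = y * w⁻¹ ∈ Q`; `a ∈ Q ⊓ P ≤ W`; `y ∈ W`.  Contradiction. -/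
theorem fin {Ω : Type*} [Group Ω] {S : Subgroup Ω} [Finite S] {p : ℕ} [Fact p.Prime]
    (hS : IsPGroup p S) {Lam : Subgroup Ω → Prop} (hL : Lat S Lam) {Y W M : Subgroup Ω} {k : ℕ}
    (hW : Lam W) (hmax : ∀ X, Lam X → W ≤ X → ¬ Y ≤ X → X = W)
    (hWk : Nat.card W < p ^ k) (hMS : M ≤ S) (hWM : W ≤ M) (hYM : ¬ Y ≤ M) (hMk : p ^ k ≤ Nat.card M)
    (hMYW : ¬ M ⊓ Y ≤ W)
    (hWE : ∀ Q : Subgroup Ω, Q ≤ S → Nat.card Q = p ^ k → ∃ P, Lam P ∧ Lam (Q ⊔ P) ∧ Lam (Q ⊓ P)) :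
    False := by
  have hp : p.Prime := Fact.out
  have hfin : ∀ X : Subgroup Ω, X ≤ S → Finite X := fun X hX =>
    Finite.of_injective (Subgroup.inclusion hX) (Subgroup.inclusion_injective hX)
  have hpg : ∀ X : Subgroup Ω, X ≤ S → IsPGroup p X := fun X hX => hS.to_le hX
  have hWS : W ≤ S := hL.le W hW
  have hUM : (M ⊓ Y) ⊔ W ≤ M := sup_le inf_le_left hWM
  have hWU : W < (M ⊓ Y) ⊔ W :=
    lt_of_le_of_ne le_sup_right (fun h => hMYW (by rw [h]; exact le_sup_left))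
  haveI := hfin _ (hUM.trans hMS)
  haveI := hfin M hMS
  haveI := hfin W hWS
  obtain ⟨j, hj⟩ := (hpg W hWS).exists_card_eq
  obtain ⟨j', hj'⟩ := (hpg _ (hUM.trans hMS)).exists_card_eq
  have hcardlt : Nat.card W < Nat.card ((M ⊓ Y) ⊔ W : Subgroup Ω) :=
    Set.ncard_lt_ncard (s := (W : Set Ω)) (t := (((M ⊓ Y) ⊔ W : Subgroup Ω) : Set Ω)) hWU
      (Set.toFinite _)
  have hjj' : j < j' := by
    rw [hj, hj'] at hcardlt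
    exact (Nat.pow_lt_pow_iff_right hp.one_lt).1 hcardlt
  have hjk : j < k := by
    rw [hj] at hWk
    exact (Nat.pow_lt_pow_iff_right hp.one_lt).1 hWk
  obtain ⟨Q1, hWQ1, hQ1U, hQ1c⟩ := H37WkMid.exists_mid (hpg _ (hUM.trans hMS)) hWU.le (k := j + 1)
    (by rw [hj]; exact Nat.pow_le_pow_right hp.pos (Nat.le_succ j))
    (by rw [hj']; exact Nat.pow_le_pow_right hp.pos hjj')
  obtain ⟨Q, hQ1Q, hQM, hQc⟩ := H37WkMid.exists_mid (hpg M hMS) (hQ1U.trans hUM) (k := k)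
    (by rw [hQ1c]; exact Nat.pow_le_pow_right hp.pos hjk) hMk
  have hne : ¬ Q1 ≤ W := by
    intro h
    have h1 : Q1 = W := le_antisymm h hWQ1
    rw [h1, hj] at hQ1c
    have := (Nat.pow_right_injective hp.two_le) hQ1c
    omega
  obtain ⟨x, hxQ1, hxW⟩ := SetLike.not_le_iff_exists.1 hne
  obtain ⟨y, hy, w, hw, rfl⟩ := mem_sup_right (A := M ⊓ Y) (B := W)
    (fun a ha b hb => hL.conj W hW a (hMS ha.1) b hb) (hQ1U hxQ1)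
  have hyQ1 : y ∈ Q1 := by
    have e : y = (y * w) * w⁻¹ := by group
    rw [e]
    exact Q1.mul_mem hxQ1 (Q1.inv_mem (hWQ1 hw))
  have hyW : y ∉ W := fun h => hxW (W.mul_mem h hw)
  have hyQ := hQ1Q hyQ1
  have hyY : y ∈ Y := hy.2
  have hWQ : W ≤ Q := hWQ1.trans hQ1Q
  have hYQ : ∀ X : Subgroup Ω, X ≤ M → ¬ Y ≤ X := fun X hX h => hYM (h.trans hX)
  obtain ⟨P, hP, hQP, hQiP⟩ := hWE Q (hQM.trans hMS) hQc
  by_cases hY : Y ≤ P ⊔ W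
  · have hX : (Q ⊓ P) ⊔ W = W := hmax _ (hL.sup _ _ hQiP hW) le_sup_right
      (hYQ _ (sup_le (inf_le_left.trans hQM) hWM))
    have hQPW : Q ⊓ P ≤ W := by
      rw [← hX]; exact le_sup_left
    obtain ⟨a, ha, w', hw', hyaw⟩ := mem_sup_right (A := P) (B := W)
      (fun a ha b hb => hL.conj W hW a (hL.le P hP ha) b hb) (hY hyY)
    have haQ : a ∈ Q := by
      have e : a = y * w'⁻¹ := by rw [hyaw]; group
      rw [e]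
      exact Q.mul_mem hyQ (Q.inv_mem (hWQ hw'))
    apply hyW
    rw [hyaw]
    exact W.mul_mem (hQPW ⟨haQ, ha⟩) hw'
  · have h1 : P ⊔ W = W := hmax _ (hL.sup _ _ hP hW) le_sup_right hY
    have hPW : P ≤ W := by
      rw [← h1]; exact le_sup_left
    have h2 : Q ⊔ P = Q := sup_eq_left.2 (hPW.trans hWQ)
    rw [h2] at hQP
    have h3 : Q = W := hmax Q hQP hWQ (hYQ Q hQM)
    rw [h3] at hQc
    omega

end Cfsg.Agent.Lib.H37WkFin
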