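import Cfsg.Agent.Lib.H37WkDefs
import Cfsg.Agent.Lib.H37WkMid
import Cfsg.Agent.Lib.Helper86Series

set_option autoImplicit false

namespace Cfsg.Agent.Lib.H37WkFw1

open Cfsg Cfsg.FusionSystem Cfsg.Agent.Lib.Helper87Fusion Cfsg.Agent.Lib.H37WkDefs

/-- (⟹), first half.  `Nat.card S = p ^ n`, `2 ≤ n`.  `H37WkMid.exists_mid` (`A := ⊥`, `B := S`, exponent `n - 1`) gives `D ≤ S` with `Nat.card D = p ^ (n-1)`; `⊥ < D` (card `> 1`), `D < S` (card `<`).
Let `Q ≤ S`, `Nat.card Q = p ^ (n-1)`.  `Q.subgroupOf S` has index `p = (Nat.card S).minFac` (`Subgroup.card_mul_index`, `Nat.Prime.pow_minFac`), so it is normal (`Subgroup.normal_of_index_eq_minFac_card`): `s * q * s⁻¹ ∈ Q` for `s ∈ S`, `q ∈ Q`.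
`Q` is strongly closed: `⟨hQ, fun R hR φ hφ x => ..⟩`, `hφ ∈ F.Hom R = inner.Hom R` gives `g ∈ S` with `φ x = g * x * g⁻¹ ∈ Q`.   `P := ⊥`: `Helper86Series.stronglyClosed_bot F`, `sup_bot_eq`, `inf_bot_eq`. -/
theorem exists_D {Ω : Type*} [Group Ω] {S : Subgroup Ω} [Finite S] {p : ℕ} [Fact p.Prime]
    (hS : IsPGroup p S) (F : FusionSystem S) (hcard : p ^ 2 ≤ Nat.card S)
    (h : ∀ P : Subgroup Ω, F.Hom P = (innerFusionSystem S).Hom P) :
    ∃ D : Subgroup Ω, ⊥ < D ∧ D < S ∧ WE F (Nat.card D) := by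
  have hp : p.Prime := Fact.out
  obtain ⟨n, hn⟩ := hS.exists_card_eq
  have hn2 : 2 ≤ n := by
    rw [hn] at hcard
    exact (Nat.pow_le_pow_iff_right hp.one_lt).1 hcard
  obtain ⟨D, -, hDS, hDc⟩ := H37WkMid.exists_mid hS (bot_le : (⊥ : Subgroup Ω) ≤ S) (k := n - 1)
    (by rw [Subgroup.card_bot]; exact Nat.one_le_pow _ _ hp.pos)
    (by rw [hn]; exact Nat.pow_le_pow_right hp.pos (Nat.sub_le _ _))
  refine ⟨D, ?_, ?_, ?_⟩
  · rw [bot_lt_iff_ne_bot]
    rintro rfl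
    rw [Subgroup.card_bot] at hDc
    have : 1 < p ^ (n - 1) := Nat.one_lt_pow (by omega) hp.one_lt
    omega
  · refine lt_of_le_of_ne hDS ?_
    rintro rfl
    rw [hn] at hDc
    have := Nat.pow_right_injective hp.two_le hDc
    omega
  · rw [hDc]
    intro Q hQ hQc
    have hnorm : ∀ s ∈ S, ∀ q ∈ Q, s * q * s⁻¹ ∈ Q := by
      have hidx : (Q.subgroupOf S).index = p := by
        have h1 := Subgroup.card_mul_index (Q.subgroupOf S)
        rw [Nat.card_congr (Subgroup.subgroupOfEquivOfLe hQ).toEquiv, hQc, hn] at h1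
        have h2 : p ^ n = p ^ (n - 1) * p := by
          rw [← pow_succ]; congr 1; omega
        rw [h2] at h1
        exact Nat.eq_of_mul_eq_mul_left (pow_pos hp.pos _) h1
      have hN : (Q.subgroupOf S).Normal := by
        apply Subgroup.normal_of_index_eq_minFac_card
        rw [hidx, hn, Nat.Prime.pow_minFac hp (by omega)]
      intro s hs q hq
      exact hN.conj_mem ⟨q, hQ hq⟩ (Subgroup.mem_subgroupOf.2 hq) ⟨s, hs⟩
    have hQsc : F.StronglyClosed Q := by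
      refine ⟨hQ, fun R hR φ hφ x => ?_⟩
      rw [h R] at hφ
      obtain ⟨-, g, hg, hgx⟩ := hφ
      rw [hgx]
      exact hnorm g hg x (hR x.2)
    refine ⟨⊥, Cfsg.Agent.Lib.Helper86Series.stronglyClosed_bot F, ?_, ?_⟩
    · rw [sup_bot_eq]; exact hQsc
    · rw [inf_bot_eq]; exact Cfsg.Agent.Lib.Helper86Series.stronglyClosed_bot F

end Cfsg.Agent.Lib.H37WkFw1
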