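import Cfsg.Agent.Lib.H37WkDefs
import Cfsg.Agent.Lib.Helper87Fusion3

set_option autoImplicit false

namespace Cfsg.Agent.Lib.H37WkFw2

open Cfsg Cfsg.FusionSystem Cfsg.Agent.Lib.Helper87Fusion Cfsg.Agent.Lib.H37WkDefs

/-- (⟹), second half: normalizer systems of the inner system are inner.  `intro H hH _ N hN P; ext φ`.  `hN P : N.Hom P = F.normalizerHom H P`
`= {φ | φ ∈ F.Hom P ∧ P ≤ normalizerIn S H ∧ (∀ x, φ x ∈ normalizerIn S H) ∧ ∃ ψ ∈ F.Hom (P ⊔ H), (∀ x : P, ψ (inclusion le_sup_left x) = φ x) ∧ (H.subgroupOf (P ⊔ H)).map ψ = H}`.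
(`⊆`) `ψ ∈ F.Hom (P ⊔ H) = inner.Hom _`: `ψ y = g * y * g⁻¹`, `g ∈ S`; `(H.subgroupOf _).map ψ = H` says `g H g⁻¹ = H`, so `g ∈ normalizer H` (`Subgroup.mem_normalizer_iff`: `h ∈ H → g h g⁻¹ ∈ H` from `⊆`; conversely `g h g⁻¹ ∈ H = image` gives `g h g⁻¹ = g h' g⁻¹`, `h = h' ∈ H`); `φ x = g * x * g⁻¹`.
(`⊇`) `P ≤ normalizerIn S H`, `g ∈ normalizerIn S H = S ⊓ normalizer H`, `φ x = g * x * g⁻¹`: `φ ∈ F.Hom P` (`h P`, `P ≤ S`), values in `normalizerIn S H` (subgroup), `ψ := ` conjugation by `g` on `P ⊔ H ≤ S` (`H ≤ S := hH.1`): `F.conj_mem`-map or via `h (P ⊔ H)`: build `ψ := ((MulAut.conj g).toMonoidHom).comp (P ⊔ H).subtype`; image of `H` is `H`.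
(The total-function form `Helper87Fusion3.isMap_normalizer_iff hN` may be more convenient.) -/
theorem ni_of_inner {Ω : Type*} [Group Ω] {S : Subgroup Ω} [Finite S] (F : FusionSystem S)
    (h : ∀ P : Subgroup Ω, F.Hom P = (innerFusionSystem S).Hom P) (n : ℕ) : NI F n := by
  intro H hH _ N hN P
  ext φ
  rw [hN P]
  constructor
  · rintro ⟨hφ, hPN, hval, ψ, hψ, hψφ, hψH⟩
    rw [h (P ⊔ H)] at hψ
    obtain ⟨hPHS, g, hg, hgψ⟩ := hψ
    refine ⟨hPN, g, ?_, ?_⟩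
    · rw [mem_normalizerIn]
      refine ⟨hg, fun x => ⟨fun hx => ?_, fun hx => ?_⟩⟩
      · have h1 : ψ ⟨x, (le_sup_right : H ≤ P ⊔ H) hx⟩ ∈ (H.subgroupOf (P ⊔ H)).map ψ :=
          ⟨_, Subgroup.mem_subgroupOf.2 hx, rfl⟩
        rw [hψH, hgψ] at h1
        exact h1
      · have h1 : g * x * g⁻¹ ∈ (H.subgroupOf (P ⊔ H)).map ψ := by rw [hψH]; exact hx
        obtain ⟨y, hy, hyx⟩ := h1
        rw [hgψ] at hyx
        have h2 : (y : Ω) = x := mul_left_cancel (mul_right_cancel hyx)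
        rw [← h2]
        exact Subgroup.mem_subgroupOf.1 hy
    · intro x
      rw [← hψφ x, hgψ]
      rfl
  · rintro ⟨hPN, g, hg, hgφ⟩
    obtain ⟨hgS, hgN⟩ := mem_normalizerIn.1 hg
    have hPS : P ≤ S := hPN.trans (normalizerIn_le S H)
    have hPHS : P ⊔ H ≤ S := sup_le hPS hH.1
    refine ⟨?_, hPN, ?_, conjHom (P ⊔ H) g, F.conj_mem hPHS hgS, ?_, ?_⟩
    · rw [h P]; exact ⟨hPS, g, hgS, hgφ⟩
    · intro x
      rw [hgφ]
      exact Subgroup.mul_mem _ (Subgroup.mul_mem _ hg (hPN x.2)) (Subgroup.inv_mem _ hg)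
    · intro x
      rw [hgφ]
      rfl
    · ext y
      constructor
      · rintro ⟨z, hz, rfl⟩
        exact (hgN z).1 (Subgroup.mem_subgroupOf.1 hz)
      · intro hy
        have hy' : g⁻¹ * y * g ∈ H := by
          rw [hgN]
          have e : g * (g⁻¹ * y * g) * g⁻¹ = y := by group
          rw [e]; exact hy
        refine ⟨⟨g⁻¹ * y * g, (le_sup_right : H ≤ P ⊔ H) hy'⟩, Subgroup.mem_subgroupOf.2 hy', ?_⟩
        show g * (g⁻¹ * y * g) * g⁻¹ = y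
        group

end Cfsg.Agent.Lib.H37WkFw2
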