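import Cfsg.Agent.Lib.H37WkDefs

set_option autoImplicit false

namespace Cfsg.Agent.Lib.H37WkHB

open Cfsg Cfsg.FusionSystem Cfsg.Agent.Lib.Helper87Fusion Cfsg.Agent.Lib.H37WkDefs

/-- A system all of whose maps are conjugations by elements of the `p`-group `S` has trivial hyperfocal subgroup. -/
theorem hyp_eq_bot {Ω : Type*} [Group Ω] {S : Subgroup Ω} {p : ℕ} [Fact p.Prime]
    (hS : IsPGroup p S) (F : FusionSystem S) (h : InnAbove F ⊥) : F.hyperfocalSubgroup p = ⊥ := by
  have hres : ∀ P : Subgroup Ω, P ≤ S → pResidual p (F.autGroup P) = ⊥ := by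
    intro P hP
    unfold pResidual
    rw [Subgroup.closure_eq_bot_iff]
    intro α hα
    have hα' : Nat.Coprime (orderOf α) p := hα
    have hmap : IsMap F P (tot (P.subtype.comp (α.1 : MulAut P).toMonoidHom)) :=
      isMap_tot ((mem_autGroup_iff F hP α.1).1 α.2)
    obtain ⟨s, hs, hsx⟩ := h P _ bot_le hmap
    have hval : ∀ x : P, (((α.1 : MulAut P) x : P) : Ω) = s * x * s⁻¹ := by
      intro x
      rw [← hsx x.1 x.2, tot_apply]
      rfl
    have hpow : ∀ (j : ℕ) (x : P), ((((α.1 : MulAut P) ^ j) x : P) : Ω) = s ^ j * x * (s ^ j)⁻¹ := by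
      intro j
      induction j with
      | zero => intro x; simp
      | succ j ih =>
        intro x
        rw [pow_succ', MulAut.mul_apply, hval, ih, pow_succ']
        group
    obtain ⟨k, hk⟩ := hS ⟨s, hs⟩
    have hk' : s ^ p ^ k = 1 := by simpa using congrArg Subtype.val hk
    have h1 : α ^ p ^ k = 1 := by
      apply Subtype.ext
      rw [Subgroup.coe_pow]
      ext x
      rw [hpow, hk']
      simp
    have h2 : orderOf α ∣ p ^ k := orderOf_dvd_of_pow_eq_one h1
    have h3 : orderOf α = 1 := Nat.Coprime.eq_one_of_dvd (Nat.Coprime.pow_right k hα') h2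
    exact orderOf_eq_one_iff.1 h3
  unfold FusionSystem.hyperfocalSubgroup
  rw [Subgroup.closure_eq_bot_iff]
  rintro y ⟨P, α, x, hP, hα, rfl⟩
  rw [hres P hP, Subgroup.mem_bot] at hα
  rw [hα]
  simp

end Cfsg.Agent.Lib.H37WkHB
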