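import Cfsg.Agent.Lib.H37WkDefs
import Cfsg.Agent.Lib.Helper86TateF

set_option autoImplicit false

namespace Cfsg.Agent.Lib.H37WkInn

open Cfsg Cfsg.FusionSystem Cfsg.Agent.Lib.Helper87Fusion Cfsg.Agent.Lib.H37WkDefs

/-- trivial hyperfocal subgroup implies inner (via `Helper86TateF.inner_mod_hyp`). -/
theorem inner_of_hyp {Ω : Type*} [Group Ω] {S : Subgroup Ω} [Finite S] {p : ℕ} [Fact p.Prime]
    (hS : IsPGroup p S) (F : FusionSystem S) (hF : F.IsSaturated p) (h : F.hyperfocalSubgroup p = ⊥) :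
    ∀ P : Subgroup Ω, F.Hom P = (innerFusionSystem S).Hom P := by
  intro P
  ext φ
  constructor
  · intro hφ
    obtain ⟨s, hs, hsu⟩ := Helper86TateF.inner_mod_hyp hS F hF (isMap_tot hφ)
    refine ⟨(F.le_of_mem hφ).1, s, hs, fun x => ?_⟩
    have := hsu x x.2
    rw [h, Subgroup.mem_bot, inv_mul_eq_one, tot_apply] at this
    exact this.symm
  · rintro ⟨hP, g, hg, hgφ⟩
    exact (isMap_conj F hP hg).hom_mem (fun x => hgφ x)

end Cfsg.Agent.Lib.H37WkInn
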