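import Cfsg.Agent.Lib.H37WkDefs

set_option autoImplicit false

namespace Cfsg.Agent.Lib.H37WkLdC

/-- PURE MATHLIB.  A subgroup of order `p` normalised by a finite `p`-group is centralised by it. -/
theorem central {Ω : Type*} [Group Ω] {S Z : Subgroup Ω} [Finite S] {p : ℕ} [hp : Fact p.Prime]
    (hS : IsPGroup p S) (hZ : Nat.card Z = p) (hn : ∀ s ∈ S, ∀ z ∈ Z, s * z * s⁻¹ ∈ Z) :
    ∀ s ∈ S, ∀ z ∈ Z, s * z * s⁻¹ = z := by
  classical
  have hZfin : Finite Z := Nat.finite_of_card_ne_zero (by rw [hZ]; exact hp.out.ne_zero)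
  letI act : MulAction S Z :=
    { smul := fun s z => ⟨s.1 * z.1 * s.1⁻¹, hn s.1 s.2 z.1 z.2⟩
      one_smul := fun z => Subtype.ext (by show (1 : Ω) * z.1 * (1 : Ω)⁻¹ = z.1; simp)
      mul_smul := fun s t z => Subtype.ext (by
        show (s.1 * t.1) * z.1 * (s.1 * t.1)⁻¹ = s.1 * (t.1 * z.1 * t.1⁻¹) * s.1⁻¹
        group) }
  have hmod := hS.card_modEq_card_fixedPoints Z
  have h1 : (1 : Z) ∈ MulAction.fixedPoints S Z := by
    intro s
    exact Subtype.ext (by show s.1 * (1 : Ω) * s.1⁻¹ = 1; simp)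
  have hpos : 0 < Nat.card (MulAction.fixedPoints S Z) := by
    have : Nonempty (MulAction.fixedPoints S Z) := ⟨⟨1, h1⟩⟩
    exact Nat.card_pos
  have hle : Nat.card (MulAction.fixedPoints S Z) ≤ p := by
    rw [← hZ]
    exact Nat.card_le_card_of_injective _ Subtype.val_injective
  have hdvd : p ∣ Nat.card (MulAction.fixedPoints S Z) := by
    rw [hZ] at hmod
    have : Nat.card (MulAction.fixedPoints S Z) ≡ 0 [MOD p] := hmod.symm.trans (by simp [Nat.ModEq])
    exact (Nat.modEq_zero_iff_dvd).1 this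
  have heq : Nat.card (MulAction.fixedPoints S Z) = Nat.card Z := by
    rw [hZ]
    exact le_antisymm hle (Nat.le_of_dvd hpos hdvd)
  have hbij : Function.Bijective (Subtype.val : MulAction.fixedPoints S Z → Z) :=
    Subtype.val_injective.bijective_of_nat_card_le (le_of_eq heq.symm)
  intro s hs z hz
  obtain ⟨w, hw⟩ := hbij.2 ⟨z, hz⟩
  have h2 := w.2 ⟨s, hs⟩
  rw [hw] at h2
  exact congrArg Subtype.val h2

end Cfsg.Agent.Lib.H37WkLdC
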