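import Cfsg.Agent.Lib.H37WkDefs
import Cfsg.Agent.Lib.H37WkLdC
import Cfsg.Agent.Lib.Helper87Fusion3
import Cfsg.Agent.Lib.Helper86Fusion2
import Cfsg.Agent.Lib.Helper89Fusion

set_option autoImplicit false

namespace Cfsg.Agent.Lib.H37WkLdId

open Cfsg Cfsg.FusionSystem Cfsg.Agent.Lib.Helper87Fusion Cfsg.Agent.Lib.H37WkDefs

/-- `Z` strongly closed of order `p`, all `F`-maps with source `S` inner  ⟹  every `F`-map with source `P ≤ Z` is the identity on `P`. -/
theorem map_eq_id {Ω : Type*} [Group Ω] {S : Subgroup Ω} [Finite S] {p : ℕ} [Fact p.Prime]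
    (hS : IsPGroup p S) (F : FusionSystem S) (hF : F.IsSaturated p) (hinn : InnAbove F S)
    {Z : Subgroup Ω} (hZ : F.StronglyClosed Z) (hZp : Nat.card Z = p)
    {P : Subgroup Ω} {f : Ω → Ω} (hP : P ≤ Z) (hf : IsMap F P f) : ∀ x ∈ P, f x = x := by
  have hfinZ : Finite Z :=
    Finite.of_injective (Subgroup.inclusion hZ.1) (Subgroup.inclusion_injective _)
  have hpp : p.Prime := Fact.out
  have hdvd : Nat.card P ∣ p := hZp ▸ Subgroup.card_dvd_of_le hP
  rcases (Nat.Prime.eq_one_or_self_of_dvd hpp _ hdvd) with h1 | h1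
  · have hb : P = ⊥ := Subgroup.eq_bot_of_card_eq P h1
    intro x hx
    rw [hb, Subgroup.mem_bot] at hx
    rw [hx]
    exact hf.map_one
  · have hPZ : P = Z := Subgroup.eq_of_le_of_card_ge hP (by rw [h1, hZp])
    subst hPZ
    have hcen := Cfsg.Agent.Lib.H37WkLdC.central hS hZp
      (fun s hs z hz => Cfsg.Agent.Lib.Helper87Fusion3.StronglyClosed_conj_mem hZ hs hz)
    have himg : ∀ {g : Ω → Ω}, IsMap F P g → g '' (P : Set Ω) = (P : Set Ω) := fun hg =>
      Cfsg.Agent.Lib.Helper89Fusion.StronglyClosed.image_eq hZ hg le_rfl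
    have hfn : F.IsFullyNormalized P := by
      refine ⟨hZ.1, fun Q hQ => ?_⟩
      obtain ⟨g, hg, hgQ⟩ := isConj_iff.mp hQ
      have : Q = P := SetLike.coe_injective (by rw [← hgQ, himg hg])
      rw [this]
    have hrec := (Cfsg.Agent.Lib.Helper86Fusion2.saturated_fullyNormalized hS hF hfn).2.2
    obtain ⟨f', hf', hff'⟩ := isReceptive_extend (Q := P) (N := S) hrec hf (himg hf) (by
      intro g hg
      refine ⟨hg, Cfsg.Agent.Lib.Helper86Fusion.mem_normalizer_of_conj_mem
        (fun y hy => ?_) (fun y hy => ?_), 1, one_mem _, fun x hx => ?_⟩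
      · rw [hcen g hg y hy]; exact hy
      · have := hcen g⁻¹ (inv_mem hg) y hy
        rw [inv_inv] at this
        rw [this]; exact hy
      · rw [hcen g hg x hx]; simp)
    obtain ⟨s, hs, hsf⟩ := hinn S f' le_rfl hf'
    intro x hx
    rw [← hff' x hx, hsf x (hZ.1 hx), hcen s hs x hx]

end Cfsg.Agent.Lib.H37WkLdId
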