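import Cfsg.Agent.Lib.H37WkDefs
import Cfsg.Agent.Lib.Helper3PGroup

set_option autoImplicit false

namespace Cfsg.Agent.Lib.H37WkMY

/-- PURE MATHLIB.  A coatom `M` of a finite `p`-group `G` is normal (`(normalizerCondition_of_isNilpotent (h := hG.isNilpotent)).normal_of_coatom M hM`) of index `p`
(`G ⧸ M` is a nontrivial `p`-group whose only subgroups are `⊥, ⊤` (correspondence: `Subgroup.comap (mk' M)` of a subgroup contains `M`), it has a subgroup of order `p` (`exists_prime_orderOf_dvd_card`/`Sylow.exists_subgroup_card_pow_prime p (n := 1)`), which is `⊤`; so `M.index = p`).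
[Look first for an existing lemma: `IsPGroup.index_eq_prime..`, `Subgroup.index_eq_prime_of_isCoatom`, grep `IsCoatom` in `Cfsg/Agent/Lib/Helper3PGroup.lean` and Mathlib `GroupTheory/PGroup`, `GroupTheory/Nilpotent`, `GroupTheory/Frattini`.]
`M.relIndex Y ∣ M.index = p` (`Subgroup.relIndex_dvd_index_of_normal`), `≠ 1` (`Subgroup.relIndex_eq_one : H.relIndex K = 1 ↔ K ≤ H`), so `= p`;  `Nat.card Y = Nat.card (M ⊓ Y) * M.relIndex Y` (`Subgroup.relIndex`, `Subgroup.card_mul_index (M.subgroupOf Y)`, `Nat.card (M.subgroupOf Y) = Nat.card (M ⊓ Y)`: `Subgroup.subgroupOfEquivOfLe`/`inf_subgroupOf_right`). -/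
theorem coatom_card {G : Type*} [Group G] [Finite G] {p : ℕ} [Fact p.Prime] (hG : IsPGroup p G)
    (M : Subgroup G) (hM : IsCoatom M) (Y : Subgroup G) (hY : ¬ Y ≤ M) :
    Nat.card G = p * Nat.card M ∧ Nat.card Y = p * Nat.card (M ⊓ Y : Subgroup G) := by
  have hp : p.Prime := Fact.out
  have hidx : M.index = p := Cfsg.Agent.Lib.Helper3PGroup.coatom_index hG hM
  haveI hn : M.Normal := Cfsg.Agent.Lib.Helper3PGroup.coatom_normal hG hM
  refine ⟨?_, ?_⟩
  · rw [← M.card_mul_index, hidx, mul_comm]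
  · have h1 : M.relIndex Y ∣ p := hidx ▸ Subgroup.relIndex_dvd_index_of_normal M Y
    have h2 : M.relIndex Y ≠ 1 := fun h => hY (Subgroup.relIndex_eq_one.mp h)
    have h3 : M.relIndex Y = p := ((Nat.dvd_prime hp).mp h1).resolve_left h2
    have h4 := (M.subgroupOf Y).card_mul_index
    have h5 : Nat.card (M.subgroupOf Y) = Nat.card (M ⊓ Y : Subgroup G) := by
      rw [← Subgroup.inf_subgroupOf_right M Y]
      exact Nat.card_congr (Subgroup.subgroupOfEquivOfLe inf_le_right).toEquiv
    rw [h5] at h4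
    have h6 : (M.subgroupOf Y).index = p := h3
    rw [h6] at h4
    rw [← h4, mul_comm]

end Cfsg.Agent.Lib.H37WkMY
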