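import Mathlib
import Cfsg.Agent.Lib.Helper86Sub
import Cfsg.Agent.Lib.Helper89Fusion2
import Cfsg.Agent.Lib.Helper87Mk
import Cfsg.Agent.Lib.Helper86Fusion2

set_option autoImplicit false

/-! Definitions for the general theorem GT (notes/helper89/S5243_S5140.md): the fusion system generated
by a class of maps of `F`, and the abstract properties `Sub`, `Inv`, `Frat`, `PElt`. -/

namespace Cfsg.Agent.Lib.H38GTDefs

open Cfsg Cfsg.FusionSystem Cfsg.Agent.Lib.Helper87Fusion Cfsg.Agent.Lib.Helper87Mk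

variable {Ω : Type*} [Group Ω] {S : Subgroup Ω}

/-- the maps lying in every fusion system over `S` containing the `F`-maps satisfying `G`. -/
def genData (F : FusionSystem S) (G : Subgroup Ω → (Ω → Ω) → Prop) : MapData S where
  M P f := ∀ D : FusionSystem S, (∀ Q g, IsMap F Q g → G Q g → IsMap D Q g) → IsMap D P f
  congr := fun h hfg D hD => (h D hD).congr hfg
  le := fun h => ⟨(h F (fun _ _ hg _ => hg)).le, fun _ hx => (h F (fun _ _ hg _ => hg)).mem hx⟩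
  inj := fun h _ hx _ hy hxy => (h F (fun _ _ hg _ => hg)).inj hx hy hxy
  hom := fun h _ hx _ hy => (h F (fun _ _ hg _ => hg)).map_mul hx hy
  conj := fun hP hg D _ => isMap_conj D hP hg
  comp := fun h₁ h₂ h D hD => (h₁ D hD).comp (h₂ D hD) h
  inv := by
    intro P P' f h hP'
    obtain ⟨g, -, hg, -, -⟩ := (h F (fun _ _ hg _ => hg)).inv hP'
    refine ⟨g, fun D hD => ?_, hg⟩
    obtain ⟨g', hg', hg'f, -, -⟩ := (h D hD).inv hP'
    refine hg'.congr (fun y hy => ?_)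
    obtain ⟨x, hx, rfl⟩ := IsMap.exists_of_mem_image hP' hy
    rw [hg'f x hx, hg x hx]

/-- the smallest fusion system over `S` containing the `F`-maps satisfying `G`. -/
def gen (F : FusionSystem S) (G : Subgroup Ω → (Ω → Ω) → Prop) : FusionSystem S :=
  (genData F G).toFusion

theorem isMap_gen_iff {F : FusionSystem S} {G : Subgroup Ω → (Ω → Ω) → Prop} {P : Subgroup Ω}
    {f : Ω → Ω} : IsMap (gen F G) P f ↔
      ∀ D : FusionSystem S, (∀ Q g, IsMap F Q g → G Q g → IsMap D Q g) → IsMap D P f :=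
  isMap_toFusion (genData F G)

theorem gen_of {F : FusionSystem S} {G : Subgroup Ω → (Ω → Ω) → Prop} {P : Subgroup Ω}
    {f : Ω → Ω} (hf : IsMap F P f) (hG : G P f) : IsMap (gen F G) P f :=
  isMap_gen_iff.2 (fun _ hD => hD P f hf hG)

theorem gen_isMap {F : FusionSystem S} {G : Subgroup Ω → (Ω → Ω) → Prop} {P : Subgroup Ω}
    {f : Ω → Ω} (hf : IsMap (gen F G) P f) : IsMap F P f :=
  isMap_gen_iff.1 hf F (fun _ _ hg _ => hg)

theorem gen_le {F : FusionSystem S} {G : Subgroup Ω → (Ω → Ω) → Prop} {D : FusionSystem S}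
    (hD : ∀ Q g, IsMap F Q g → G Q g → IsMap D Q g) : gen F G ≤ D := by
  intro P φ hφ
  exact mem_hom_iff.2 (isMap_gen_iff.1 (isMap_tot hφ) D hD)

/-- INDUCTION PRINCIPLE for `gen F G`. -/
theorem gen_induction {F : FusionSystem S} {G : Subgroup Ω → (Ω → Ω) → Prop}
    (C : Subgroup Ω → (Ω → Ω) → Prop)
    (hcongr : ∀ (P : Subgroup Ω) (f g : Ω → Ω), (∀ x ∈ P, f x = g x) → C P f → C P g)
    (hconj : ∀ (P : Subgroup Ω) (g : Ω), P ≤ S → g ∈ S → C P (fun x => g * x * g⁻¹))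
    (hcomp : ∀ (P Q : Subgroup Ω) (f g : Ω → Ω), IsMap F P f → IsMap F Q g → (∀ x ∈ P, f x ∈ Q) →
      C P f → C Q g → C P (fun x => g (f x)))
    (hinv : ∀ (P Q : Subgroup Ω) (f g : Ω → Ω), IsMap F P f → f '' (P : Set Ω) = (Q : Set Ω) →
      IsMap F Q g → (∀ x ∈ P, g (f x) = x) → C P f → C Q g)
    (hbase : ∀ Q g, IsMap F Q g → G Q g → C Q g)
    {P : Subgroup Ω} {f : Ω → Ω} (hf : IsMap (gen F G) P f) : C P f :=
  ((Helper86Sub.isMap_subsystem_iff F C hcongr hconj hcomp hinv).1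
    (isMap_gen_iff.1 hf (Helper86Sub.subsystem F C hcongr hconj hcomp hinv)
      (fun Q g hg hG => (Helper86Sub.isMap_subsystem_iff F C hcongr hconj hcomp hinv).2
        ⟨hg, hbase Q g hg hG⟩))).2

/-- `F₀ ⊆ F`, for total maps. -/
def Sub (F₀ F : FusionSystem S) : Prop :=
  ∀ (P : Subgroup Ω) (f : Ω → Ω), IsMap F₀ P f → IsMap F P f

/-- (G2) `F₀` is invariant under conjugation by `Aut_F(S)`. -/
def Inv (F₀ F : FusionSystem S) : Prop :=
  ∀ (P P' : Subgroup Ω) (a a' f : Ω → Ω), IsMap F S a → IsMap F S a' → (∀ x ∈ S, a' (a x) = x) →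
    a '' (P : Set Ω) = (P' : Set Ω) → IsMap F₀ P f → IsMap F₀ P' (fun x => a (f (a' x)))

/-- (G3) Frattini: every `F`-map is an element of `Aut_F(S)` composed with an `F₀`-map. -/
def Frat (F₀ F : FusionSystem S) : Prop :=
  ∀ (P : Subgroup Ω) (f : Ω → Ω), IsMap F P f →
    ∃ a f₀ : Ω → Ω, IsMap F S a ∧ IsMap F₀ P f₀ ∧ ∀ x ∈ P, f x = a (f₀ x)

/-- (G4) `Aut_{F₀}(P)` contains every `p`-element of `Aut_F(P)`. -/
def PElt (F₀ F : FusionSystem S) (p : ℕ) : Prop :=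
  ∀ P : Subgroup Ω, P ≤ S → ∀ α ∈ F.autGroup P, ∀ k : ℕ, α ^ p ^ k = 1 → α ∈ F₀.autGroup P

/-- an `F`-map on `S` is onto `S`. -/
theorem image_top [Finite S] {F : FusionSystem S} {a : Ω → Ω} (ha : IsMap F S a) :
    a '' (S : Set Ω) = (S : Set Ω) :=
  Helper86Fusion2.image_eq_of_card_le ha le_rfl (fun _ hx => ha.mem hx) le_rfl

/-- the inverse of an element of `Aut_F(S)`. -/
theorem exists_inv_top [Finite S] {F : FusionSystem S} {a : Ω → Ω} (ha : IsMap F S a) :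
    ∃ a', IsMap F S a' ∧ (∀ x ∈ S, a' (a x) = x) ∧ (∀ x ∈ S, a (a' x) = x) :=
  let ⟨a', h1, h2, h3, _⟩ := ha.inv (image_top ha)
  ⟨a', h1, h2, h3⟩

/-- a one-sided inverse on `S` is two-sided. -/
theorem right_inv_top [Finite S] {F : FusionSystem S} {a a' : Ω → Ω} (ha : IsMap F S a)
    (h : ∀ x ∈ S, a' (a x) = x) : ∀ x ∈ S, a (a' x) = x := by
  intro y hy
  obtain ⟨x, hx, rfl⟩ := IsMap.exists_of_mem_image (image_top ha) hy
  rw [h x hx]

/-- if `a P = P'` then `a' P' = P`. -/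
theorem image_inv {P P' : Subgroup Ω} {a a' : Ω → Ω} (hP : P ≤ S) (h : ∀ x ∈ S, a' (a x) = x)
    (hPP' : a '' (P : Set Ω) = (P' : Set Ω)) : a' '' (P' : Set Ω) = (P : Set Ω) := by
  rw [← hPP', Set.image_image]
  ext x
  constructor
  · rintro ⟨y, hy, rfl⟩
    show a' (a y) ∈ (P : Set Ω)
    rw [h y (hP hy)]; exact hy
  · intro hx
    exact ⟨x, hx, h x (hP hx)⟩

end Cfsg.Agent.Lib.H38GTDefs
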