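import Mathlib
import Cfsg.Agent.Lib.H38GTDefs


set_option autoImplicit false

namespace Cfsg.Agent.Lib.H38GTFA

open Cfsg Cfsg.FusionSystem Cfsg.Agent.Lib.Helper87Fusion Cfsg.Agent.Lib.Helper87Fusion2
  Cfsg.Agent.Lib.H38GTDefs

variable {Ω : Type*} [Group Ω] {S : Subgroup Ω}

/-- (G5a) fully automized passes to a subsystem over the same `S`.
PROOF.  `hQS := hQ.1`.  `A₀ := F₀.autGroup Q ≤ A := F.autGroup Q` (`mem_autGroup_iff_totA` + `hsub`), `U := autInducedBy S Q ≤ A₀`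
 (`autInducedBy_le_autGroup F₀ hQS`).  `Finite (MulAut Q)` from `Helper86Fusion.finite_of_le hQS`.
 By `Helper86Fusion2.fullyAutomized_iff_card F hQS` : `card U = p ^ (card A).factorization p`; want the same with `A₀`.
 `card U ∣ card A₀` and `card A₀ ∣ card A` (`Subgroup.card_dvd_of_le`).  So `p ^ v_p(A) ∣ card A₀` gives `v_p(A) ≤ v_p(A₀)`
 (`(Nat.Prime.pow_dvd_iff_le_factorization hp (Nat.card_pos.ne')).1`) and `v_p(A₀) ≤ v_p(A)`
 (`(Nat.factorization_le_iff_dvd _ _).2 hdvd p`). -/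
theorem fullyAutomized_of_sub [Finite S] {p : ℕ} [Fact p.Prime] (F F₀ : FusionSystem S)
    (hsub : Sub F₀ F) {Q : Subgroup Ω} (hQ : F.IsFullyAutomized p Q) :
    F₀.IsFullyAutomized p Q := by
  have hQS := hQ.1
  have hp : p.Prime := Fact.out
  have : Finite Q := Helper86Fusion.finite_of_le hQS
  have hA : F₀.autGroup Q ≤ F.autGroup Q := by
    intro α hα
    exact (mem_autGroup_iff_totA F hQS α).2 (hsub Q _ ((mem_autGroup_iff_totA F₀ hQS α).1 hα))
  have hU : autInducedBy S Q ≤ F₀.autGroup Q := autInducedBy_le_autGroup F₀ hQS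
  have h1 := (Helper86Fusion2.fullyAutomized_iff_card F hQS).1 hQ
  rw [Helper86Fusion2.fullyAutomized_iff_card F₀ hQS, h1]
  have h2 : Nat.card (autInducedBy S Q) ∣ Nat.card (F₀.autGroup Q) := Subgroup.card_dvd_of_le hU
  have h3 : Nat.card (F₀.autGroup Q) ∣ Nat.card (F.autGroup Q) := Subgroup.card_dvd_of_le hA
  rw [h1] at h2
  have h4 := (Nat.Prime.pow_dvd_iff_le_factorization hp (Nat.card_pos.ne')).1 h2
  have h5 := (Nat.factorization_le_iff_dvd (Nat.card_pos.ne') (Nat.card_pos.ne')).2 h3 p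
  rw [le_antisymm h4 h5]

end Cfsg.Agent.Lib.H38GTFA
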