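import Mathlib
import Cfsg.Agent.Lib.H38GTDefs


set_option autoImplicit false

namespace Cfsg.Agent.Lib.H38GTFN

open Cfsg Cfsg.FusionSystem Cfsg.Agent.Lib.Helper87Fusion Cfsg.Agent.Lib.Helper87Fusion2
  Cfsg.Agent.Lib.H38GTDefs

variable {Ω : Type*} [Group Ω] {S : Subgroup Ω}

/-- (G4a) every `P ≤ S` is `F₀`-conjugate to a fully `F`-normalized subgroup.
PROOF.  `Helper86Fusion2.exists_fullyNormalized_conj F hP` gives `P'`, `F.IsConj P P'`, fully normalized; by `isConj_iff` an `F`-map `ψ`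
 with `ψ '' P = P'`; `hfrat` : `ψ = a ψ₀` on `P`.  `Q := ψ₀ P` (`IsMap.exists_image`), so `a Q = P'` and `F₀.IsConj P Q`.
 `obtain ⟨a', ha', h1, h2⟩ := exists_inv_top ha`; `image_inv : a' '' P' = Q`.
 `Q` fully normalized: `Q ≤ S`; if `F.IsConj Q R` then `F.IsConj P' R` (`isConj_trans`, `isConj_symm`, `a` restricted to `Q`), so
 `card N_S(R) ≤ card N_S(P')`; and `card N_S(P') ≤ card N_S(Q)` by `Helper86Fusion.card_le_of_isMap (ha'.restrict (normalizerIn_le S P'))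
 (normalizerIn_le S Q)`: for `n ∈ N_S(P')`, `a' n ∈ N_S(Q)` (`mem_normalizerIn`; for the iff use
 `Helper86Fusion.mem_normalizer_of_conj_mem` or argue with `a' (n y n⁻¹) = a' n * a' y * (a' n)⁻¹`). -/
theorem exists_fn [Finite S] (F F₀ : FusionSystem S) (hsub : Sub F₀ F) (hfrat : Frat F₀ F)
    {P : Subgroup Ω} (hP : P ≤ S) : ∃ Q, F₀.IsConj P Q ∧ F.IsFullyNormalized Q := by
  obtain ⟨P', hPP', hfn⟩ := Helper86Fusion2.exists_fullyNormalized_conj F hP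
  obtain ⟨ψ, hψ, hψP⟩ := isConj_iff.1 hPP'
  obtain ⟨a, ψ₀, ha, hψ₀, hfac⟩ := hfrat P ψ hψ
  obtain ⟨Q, hQ⟩ := hψ₀.exists_image
  have hQS : Q ≤ S := hψ₀.image_le hQ
  have hP'S : P' ≤ S := hfn.1
  have haQ : a '' (Q : Set Ω) = (P' : Set Ω) := by
    rw [← hQ, Set.image_image, ← hψP]
    exact Set.image_congr (fun x hx => (hfac x hx).symm)
  obtain ⟨a', ha', h1, h2⟩ := exists_inv_top ha
  have ha'P : a' '' (P' : Set Ω) = (Q : Set Ω) := image_inv hQS h1 haQ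
  refine ⟨Q, isConj_iff.2 ⟨ψ₀, hψ₀, hQ⟩, hQS, fun R hR => ?_⟩
  have hQP' : F.IsConj Q P' := isConj_iff.2 ⟨a, ha.restrict hQS, haQ⟩
  have h3 := hfn.2 R (isConj_trans (isConj_symm hQP') hR)
  refine h3.trans ?_
  apply Helper86Fusion.card_le_of_isMap (ha'.restrict (normalizerIn_le S P')) (normalizerIn_le S Q)
  intro n hn
  rw [mem_normalizerIn] at hn
  show a' n ∈ S ⊓ Subgroup.normalizer (Q : Set Ω)
  refine Subgroup.mem_inf.2 ⟨ha'.mem hn.1, Helper86Fusion.mem_normalizer_of_conj_mem ?_ ?_⟩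
  · intro y hy
    obtain ⟨y', hy', rfl⟩ := IsMap.exists_of_mem_image ha'P hy
    have : a' n * a' y' * (a' n)⁻¹ = a' (n * y' * n⁻¹) := (ha'.map_conj hn.1 (hP'S hy')).symm
    rw [this]
    exact IsMap.mem_image ha'P ((hn.2 y').1 hy')
  · intro y hy
    obtain ⟨y', hy', rfl⟩ := IsMap.exists_of_mem_image ha'P hy
    have hn' : n⁻¹ ∈ S := S.inv_mem hn.1
    have : (a' n)⁻¹ * a' y' * a' n = a' (n⁻¹ * y' * n) := by
      have h := ha'.map_conj hn' (hP'S hy')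
      rw [inv_inv, ha'.map_inv hn.1, inv_inv] at h
      exact h.symm
    rw [this]
    apply IsMap.mem_image ha'P
    apply (hn.2 _).2
    have e : n * (n⁻¹ * y' * n) * n⁻¹ = y' := by group
    rw [e]; exact hy'

end Cfsg.Agent.Lib.H38GTFN
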