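import Mathlib
import Cfsg.Agent.Lib.H38GTDefs


set_option autoImplicit false

namespace Cfsg.Agent.Lib.H38GTFrat

open Cfsg Cfsg.FusionSystem Cfsg.Agent.Lib.Helper87Fusion Cfsg.Agent.Lib.Helper87Fusion2
  Cfsg.Agent.Lib.H38GTDefs

variable {Ω : Type*} [Group Ω] {S : Subgroup Ω}

/-- (G3) Frattini property from its validity on `S` and the essential subgroups. -/
theorem frat [Finite S] {p : ℕ} [Fact p.Prime] (hS : IsPGroup p S) (F F₀ : FusionSystem S)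
    (hF : F.IsSaturated p) (hinv : Inv F₀ F)
    (hbase : ∀ (P : Subgroup Ω) (f : Ω → Ω), (P = S ∨ F.IsEssential p P) → IsMap F P f →
      ∃ a f₀ : Ω → Ω, IsMap F S a ∧ IsMap F₀ P f₀ ∧ ∀ x ∈ P, f x = a (f₀ x)) :
    Frat F₀ F := by
  intro P f hf
  refine Helper86Sub.alperin_induction hS F hF
    (fun P f => ∃ a f₀ : Ω → Ω, IsMap F S a ∧ IsMap F₀ P f₀ ∧ ∀ x ∈ P, f x = a (f₀ x))
    ?_ ?_ ?_ ?_ ?_ hf
  · rintro P f g hfg ⟨a, f₀, ha, hf₀, h⟩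
    exact ⟨a, f₀, ha, hf₀, fun x hx => by rw [← hfg x hx, h x hx]⟩
  · intro P g hP hg
    exact ⟨fun x => x, fun x => g * x * g⁻¹, isMap_id' F le_rfl, isMap_conj F₀ hP hg,
      fun x _ => rfl⟩
  · rintro P Q f g hf hg hfQ ⟨a, f₀, ha, hf₀, hfa⟩ ⟨b, g₀, hb, hg₀, hgb⟩
    obtain ⟨a', ha', h1, h2⟩ := exists_inv_top ha
    obtain ⟨Q₁, hQ₁⟩ := ha'.exists_image_of_le hg.le
    have h3 : IsMap F₀ Q₁ (fun x => a' (g₀ (a x))) := hinv Q Q₁ a' a g₀ ha' ha h2 hQ₁ hg₀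
    have hmem : ∀ x ∈ P, f₀ x ∈ Q₁ := by
      intro x hx
      have h4 : f₀ x = a' (f x) := by rw [hfa x hx, h1 _ (hf₀.mem hx)]
      rw [h4]
      exact IsMap.mem_image hQ₁ (hfQ x hx)
    refine ⟨fun x => b (a x), fun x => a' (g₀ (a (f₀ x))), ha.comp hb (fun x hx => ha.mem hx),
      hf₀.comp h3 hmem, fun x hx => ?_⟩
    show g (f x) = b (a (a' (g₀ (a (f₀ x)))))
    rw [← hfa x hx, h2 _ (hg₀.mem (hfQ x hx)), hgb _ (hfQ x hx)]
  · rintro P Q f g hf hfPQ hg hgf ⟨a, f₀, ha, hf₀, hfa⟩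
    obtain ⟨a', ha', h1, h2⟩ := exists_inv_top ha
    obtain ⟨P₀, hP₀⟩ := hf₀.exists_image
    obtain ⟨fi, hfi, hfi1, hfi2, -⟩ := hf₀.inv hP₀
    have hP₀S : P₀ ≤ S := hf₀.image_le hP₀
    have haP₀ : a '' (P₀ : Set Ω) = (Q : Set Ω) := by
      ext y
      constructor
      · rintro ⟨z, hz, rfl⟩
        obtain ⟨x, hx, rfl⟩ := IsMap.exists_of_mem_image hP₀ hz
        rw [← hfa x hx]
        exact IsMap.mem_image hfPQ hx
      · intro hy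
        obtain ⟨x, hx, rfl⟩ := IsMap.exists_of_mem_image hfPQ hy
        exact ⟨f₀ x, IsMap.mem_image hP₀ hx, (hfa x hx).symm⟩
    have h3 : IsMap F₀ Q (fun x => a (fi (a' x))) := hinv P₀ Q a a' fi ha ha' h1 haP₀ hfi
    refine ⟨a', fun x => a (fi (a' x)), ha', h3, fun y hy => ?_⟩
    obtain ⟨x, hx, rfl⟩ := IsMap.exists_of_mem_image hfPQ hy
    show g (f x) = a' (a (fi (a' (f x))))
    rw [hgf x hx, hfa x hx, h1 _ (hf₀.mem hx), hfi1 x hx, h1 _ (hf.le hx)]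
  · intro P f hP hf _
    exact hbase P f hP hf

end Cfsg.Agent.Lib.H38GTFrat
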