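import Mathlib
import Cfsg.Agent.Lib.H38GTDefs


set_option autoImplicit false

namespace Cfsg.Agent.Lib.H38GTIdx

open Cfsg Cfsg.FusionSystem Cfsg.Agent.Lib.Helper87Fusion Cfsg.Agent.Lib.Helper87Fusion2
  Cfsg.Agent.Lib.H38GTDefs

variable {Ω : Type*} [Group Ω] {S : Subgroup Ω}

/-- (G8c) `F₀` has index prime to `p` in `F`.
PROOF.  `refine ⟨fun P φ hφ => mem_hom_iff.2 (hsub P _ (isMap_tot hφ)), fun P hP => ?_⟩`;
 `rw [Subgroup.map_le_iff_le_comap, Subgroup.closure_le]`; `rintro α ⟨k, hk⟩`; show `(α : MulAut P) ∈ F₀.autGroup P`;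
 `hp P hP α α.2 k _` where `(α : MulAut P) ^ p ^ k = 1` from `pow_orderOf_eq_one α` rewritten by `hk` (`Subgroup.coe_pow`, `Subtype.ext_iff`). -/
theorem primeToP {p : ℕ} (F F₀ : FusionSystem S) (hsub : Sub F₀ F) (hp : PElt F₀ F p) :
    F₀.HasPrimeToPIndexIn F p := by
  refine ⟨fun P φ hφ => mem_hom_iff.2 (hsub P _ (isMap_tot hφ)), fun P hP => ?_⟩
  rw [Subgroup.map_le_iff_le_comap, Subgroup.closure_le]
  rintro α ⟨k, hk⟩
  show (α : MulAut P) ∈ F₀.autGroup P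
  refine hp P hP α α.2 k ?_
  have h1 : α ^ p ^ k = 1 := by rw [← hk]; exact pow_orderOf_eq_one α
  have h2 := congrArg Subtype.val h1
  simpa using h2

end Cfsg.Agent.Lib.H38GTIdx
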