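import Mathlib
import Cfsg.Agent.Lib.H38GTDefs


set_option autoImplicit false

namespace Cfsg.Agent.Lib.H38GTInv

open Cfsg Cfsg.FusionSystem Cfsg.Agent.Lib.Helper87Fusion Cfsg.Agent.Lib.Helper87Fusion2
  Cfsg.Agent.Lib.H38GTDefs

variable {Ω : Type*} [Group Ω] {S : Subgroup Ω}

/-- (G2) The system generated by the `K`-maps on members of `H` is invariant under `Aut_F(S)`. -/
theorem inv_gen [Finite S] (F : FusionSystem S) (H : Set (Subgroup Ω))
    (K : Subgroup Ω → (Ω → Ω) → Prop)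
    (hHconj : ∀ P ∈ H, ∀ Q, F.IsConj P Q → Q ∈ H)
    (hinvar : ∀ (P P' : Subgroup Ω) (a a' f : Ω → Ω), IsMap F S a → IsMap F S a' →
      (∀ x ∈ S, a' (a x) = x) → a '' (P : Set Ω) = (P' : Set Ω) → IsMap F P f → K P f →
      K P' (fun x => a (f (a' x)))) :
    Inv (gen F (fun P f => P ∈ H ∧ K P f)) F := by
  intro P P' a a' f ha ha' haa' hPP' hf
  obtain ⟨F₀, hF₀⟩ : ∃ F₀, F₀ = gen F (fun P f => P ∈ H ∧ K P f) := ⟨_, rfl⟩
  rw [← hF₀]
  have key := gen_induction (F := F) (G := fun P f => P ∈ H ∧ K P f)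
    (fun P f => P ≤ S → ∀ (P' : Subgroup Ω) (a a' : Ω → Ω), IsMap F S a → IsMap F S a' →
      (∀ x ∈ S, a' (a x) = x) → a '' (P : Set Ω) = (P' : Set Ω) →
      IsMap F₀ P' (fun x => a (f (a' x))))
    ?_ ?_ ?_ ?_ ?_ hf
  · exact key (gen_isMap hf).le P' a a' ha ha' haa' hPP'
  · intro P f g hfg hC hP P' a a' ha ha' haa' hPP'
    refine (hC hP P' a a' ha ha' haa' hPP').congr (fun x hx => ?_)
    have : a' x ∈ P := IsMap.mem_image (image_inv hP haa' hPP') hx
    show a (f (a' x)) = a (g (a' x))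
    rw [hfg _ this]
  · intro P g hP hg _ P' a a' ha ha' haa' hPP'
    have hP' : P' ≤ S := (ha.restrict hP).image_le hPP'
    refine (isMap_conj F₀ hP' (ha.mem hg)).congr (fun x hx => ?_)
    have hx' : a' x ∈ S := ha'.mem (hP' hx)
    show a g * x * (a g)⁻¹ = a (g * a' x * g⁻¹)
    rw [ha.map_mul (S.mul_mem hg hx') (S.inv_mem hg), ha.map_mul hg hx', ha.map_inv hg,
      right_inv_top ha haa' x (hP' hx)]
  · intro P Q f g hf hg hfQ hCf hCg hP P' a a' ha ha' haa' hPP'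
    obtain ⟨Q', hQ'⟩ := ha.exists_image_of_le hg.le
    have h1 := hCf hf.le P' a a' ha ha' haa' hPP'
    have h2 := hCg hg.le Q' a a' ha ha' haa' hQ'
    refine (h1.comp h2 (fun x hx => ?_)).congr (fun x hx => ?_)
    · exact IsMap.mem_image hQ' (hfQ _ (IsMap.mem_image (image_inv hP haa' hPP') hx))
    · show a (g (a' (a (f (a' x))))) = a (g (f (a' x)))
      rw [haa' _ (hf.mem (IsMap.mem_image (image_inv hP haa' hPP') hx))]
  · intro P Q f g hf hfPQ hg hgf hCf hQ Q' a a' ha ha' haa' hQQ'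
    obtain ⟨P', hP'⟩ := ha.exists_image_of_le hf.le
    have h1 := hCf hf.le P' a a' ha ha' haa' hP'
    have himg : (fun x => a (f (a' x))) '' (P' : Set Ω) = (Q' : Set Ω) := by
      ext y
      constructor
      · rintro ⟨x, hx, rfl⟩
        exact IsMap.mem_image hQQ' (IsMap.mem_image hfPQ
          (IsMap.mem_image (image_inv hf.le haa' hP') hx))
      · intro hy
        obtain ⟨q, hq, rfl⟩ := IsMap.exists_of_mem_image hQQ' hy
        obtain ⟨x, hx, rfl⟩ := IsMap.exists_of_mem_image hfPQ hq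
        refine ⟨a x, IsMap.mem_image hP' hx, ?_⟩
        show a (f (a' (a x))) = a (f x)
        rw [haa' x (hf.le hx)]
    obtain ⟨h, hh, hh1, hh2, -⟩ := h1.inv himg
    refine hh.congr (fun y hy => ?_)
    obtain ⟨x, hx, rfl⟩ := IsMap.exists_of_mem_image himg hy
    rw [hh1 x hx]
    have hx' : a' x ∈ P := IsMap.mem_image (image_inv hf.le haa' hP') hx
    show x = a (g (a' (a (f (a' x)))))
    rw [haa' _ (hf.mem hx'), hgf _ hx',
      right_inv_top ha haa' x ((ha.restrict hf.le).image_le hP' hx)]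
  · rintro Q g hg ⟨hQH, hK⟩ hQ Q' a a' ha ha' haa' hQQ'
    rw [hF₀]
    apply gen_of
    · have hQ'S : Q' ≤ S := (ha.restrict hQ).image_le hQQ'
      have h1 : IsMap F Q' a' := ha'.restrict hQ'S
      have h2 := h1.comp hg (fun x hx => IsMap.mem_image (image_inv hQ haa' hQQ') hx)
      exact h2.comp ha (fun x hx => hg.mem (IsMap.mem_image (image_inv hQ haa' hQQ') hx))
    · exact ⟨hHconj Q hQH Q' (isConj_iff.2 ⟨a, ha.restrict hQ, hQQ'⟩),
        hinvar Q Q' a a' g ha ha' haa' hQQ' hg hK⟩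

end Cfsg.Agent.Lib.H38GTInv
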