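import Mathlib
import Cfsg.Agent.Lib.H38GTDefs
import Cfsg.Agent.Lib.Helper90NormalCrit

set_option autoImplicit false

namespace Cfsg.Agent.Lib.H38GTNor

open Cfsg Cfsg.FusionSystem Cfsg.Agent.Lib.Helper87Fusion Cfsg.Agent.Lib.Helper87Fusion2
  Cfsg.Agent.Lib.H38GTDefs

variable {Ω : Type*} [Group Ω] {S : Subgroup Ω}

/-- (G8) `F₀` is normal in `F`.
PROOF.  `Helper90NormalCrit.isNormalIn_of hF₀ hF hsub hT hinv' hfrat' hext'` with `T = S`:
 * `hT : F.StronglyClosed S` := `⟨le_rfl, fun R _ φ hφ x => (F.le_of_mem hφ).2 x⟩`.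
 * `hinv'` : given `IsMap F₀ P f`, `IsMap F S a`, `a '' P = P'`: `obtain ⟨a', ha', h1, h2⟩ := exists_inv_top ha`, take `f' := fun x => a (f (a' x))`
   (`hinv P P' a a' f ha ha' h1 hPP' hf`), and `f' (a x) = a (f x)` by `h1 x (hf.le hx)`.
 * `hfrat'` := `fun P f _ hf => hfrat P f hf`.
 * `hext'` : `have hE : S ⊔ centralizerIn S S = S := sup_eq_left.2 (centralizerIn_le S S)`; given `IsMap F₀ S a` take `b := a`; `rw [hE]`;
   `hsub S a ha`, `image_top (hsub S a ha)`; for `c ∈ C_S(S)` (`mem_centralizerIn`): `c⁻¹ * a c ∈ S`, and it centralizes `S`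
   (`Subgroup.mem_centralizer_iff`): `a c` commutes with every `y = a x ∈ S` (surjectivity from `image_top`), and so does `c`. -/
theorem normalIn [Finite S] {p : ℕ} (F F₀ : FusionSystem S) (hF₀ : F₀.IsSaturated p)
    (hF : F.IsSaturated p) (hsub : Sub F₀ F) (hinv : Inv F₀ F) (hfrat : Frat F₀ F) :
    F₀.IsNormalIn F p := by
  have hT : F.StronglyClosed S := ⟨le_rfl, fun R _ φ hφ x => (F.le_of_mem hφ).2 x⟩
  have hE : S ⊔ centralizerIn S S = S := sup_eq_left.2 (centralizerIn_le S S)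
  refine Helper90NormalCrit.isNormalIn_of hF₀ hF hsub hT ?_ (fun P f _ hf => hfrat P f hf) ?_
  · intro P P' f a hf ha hPP'
    obtain ⟨a', ha', h1, h2⟩ := exists_inv_top ha
    refine ⟨fun x => a (f (a' x)), hinv P P' a a' f ha ha' h1 hPP' hf, fun x hx => ?_⟩
    show a (f (a' (a x))) = a (f x)
    rw [h1 x (hf.le hx)]
  · intro a ha
    have haF := hsub S a ha
    refine ⟨a, ?_, ?_, fun x _ => rfl, ?_⟩
    · rw [hE]; exact haF
    · rw [hE]; exact image_top haF
    · intro c hc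
      rw [mem_centralizerIn] at hc
      obtain ⟨hcS, hcc⟩ := hc
      refine Subgroup.mem_inf.2 ⟨S.mul_mem (S.inv_mem hcS) (haF.mem hcS), ?_⟩
      rw [Subgroup.mem_centralizer_iff]
      intro y hy
      obtain ⟨x, hx, rfl⟩ := IsMap.exists_of_mem_image (image_top haF) hy
      have h1 : a x * a c = a c * a x := by
        rw [← haF.map_mul hx hcS, ← haF.map_mul hcS hx, hcc x hx]
      have h2 : a x * c = c * a x := hcc _ (haF.mem hx)
      have h3 : a x * c⁻¹ = c⁻¹ * a x := by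
        calc a x * c⁻¹ = c⁻¹ * (c * a x) * c⁻¹ := by group
          _ = c⁻¹ * (a x * c) * c⁻¹ := by rw [h2]
          _ = c⁻¹ * a x := by group
      calc a x * (c⁻¹ * a c) = (a x * c⁻¹) * a c := by group
        _ = c⁻¹ * (a x * a c) := by rw [h3]; group
        _ = c⁻¹ * a c * a x := by rw [h1]; group

end Cfsg.Agent.Lib.H38GTNor
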