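import Mathlib
import Cfsg.Agent.Lib.H38GTDefs
import Cfsg.Agent.Lib.Helper87Fusion3

set_option autoImplicit false

namespace Cfsg.Agent.Lib.H38GTPCore

open Cfsg Cfsg.FusionSystem Cfsg.Agent.Lib.Helper87Fusion Cfsg.Agent.Lib.Helper87Fusion2
  Cfsg.Agent.Lib.H38GTDefs

variable {Ω : Type*} [Group Ω] {S : Subgroup Ω}

/-- abstract version: `A₀ ≤ A` contains all `p`-elements of `A`. -/
theorem pCore_map_le {M : Type*} [Group M] {p : ℕ} {A A₀ : Subgroup M} (hA : A₀ ≤ A)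
    (hp : ∀ α ∈ A, ∀ k : ℕ, α ^ p ^ k = 1 → α ∈ A₀) :
    (pCore p ↥A).map A.subtype ≤ (pCore p ↥A₀).map A₀.subtype := by
  have hpow : ∀ x ∈ (pCore p ↥A).map A.subtype, ∃ k : ℕ, x ^ p ^ k = 1 := by
    rintro _ ⟨γ, hγ, rfl⟩
    obtain ⟨k, hk⟩ := Helper87Fusion3.pCore_isPGroup p A ⟨γ, hγ⟩
    refine ⟨k, ?_⟩
    have h1 : γ ^ p ^ k = 1 := by
      have := congrArg Subtype.val hk
      simpa using this
    have h2 := congrArg Subtype.val h1
    simpa using h2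
  have hXA₀ : (pCore p ↥A).map A.subtype ≤ A₀ := by
    intro x hx
    obtain ⟨k, hk⟩ := hpow x hx
    obtain ⟨γ, -, rfl⟩ := hx
    exact hp _ γ.2 k hk
  have hNp : IsPGroup p (((pCore p ↥A).map A.subtype).subgroupOf A₀) := by
    rintro ⟨n, hn⟩
    obtain ⟨k, hk⟩ := hpow _ (Subgroup.mem_subgroupOf.1 hn)
    refine ⟨k, Subtype.ext (Subtype.ext ?_)⟩
    simpa using hk
  have hNn : (((pCore p ↥A).map A.subtype).subgroupOf A₀).Normal := by
    constructor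
    intro n hn g
    obtain ⟨γ, hγ, hγn⟩ := Subgroup.mem_subgroupOf.1 hn
    rw [Subgroup.mem_subgroupOf]
    refine ⟨⟨g, hA g.2⟩ * γ * (⟨g, hA g.2⟩ : A)⁻¹,
      (Helper87Fusion3.pCore_normal p A).conj_mem γ hγ _, ?_⟩
    have hγn' : (γ : M) = (n : M) := hγn
    simp [hγn']
  have hle := Helper87Fusion3.le_pCore hNn hNp
  intro x hx
  exact ⟨⟨x, hXA₀ hx⟩, hle (Subgroup.mem_subgroupOf.2 hx), rfl⟩

/-- (G6c) `O_p(Aut_F(Q)) ≤ O_p(Aut_{F₀}(Q))` (inside `Aut(Q)`).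
PROOF.  `A := F.autGroup Q`, `A₀ := F₀.autGroup Q ≤ A` (`mem_autGroup_iff_totA` + `hsub`).  `X := (pCore p A).map A.subtype`.
 * `X ≤ A₀`: `γ ∈ pCore p A`; `Helper87Fusion3.pCore_isPGroup p A ⟨γ, hγ⟩ : ∃ k, _ ^ p ^ k = 1`; push to `MulAut Q`
   (`Subtype.ext_iff`, `Subgroup.coe_pow`), apply `hp Q hQ γ γ.2 k`.
 * `N := X.subgroupOf A₀` is a `p`-group (injective image / `IsPGroup.of_injective` into `pCore p A`, or elementwise as above) and normal in `A₀`: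
   for `n ∈ N`, `g ∈ A₀`: `g n g⁻¹` corresponds to the conjugate in `A` of an element of `pCore p A`, which is normal (`Helper87Fusion3.pCore_normal p A`).
 * `Helper87Fusion3.le_pCore hN hpN : N ≤ pCore p A₀`; so each `x ∈ X` is `A₀.subtype ⟨x, _⟩` with `⟨x,_⟩ ∈ N`. -/
theorem pCore_le {p : ℕ} (F F₀ : FusionSystem S) (hsub : Sub F₀ F) (hp : PElt F₀ F p)
    {Q : Subgroup Ω} (hQ : Q ≤ S) :
    (pCore p ↥(F.autGroup Q)).map (F.autGroup Q).subtype ≤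
      (pCore p ↥(F₀.autGroup Q)).map (F₀.autGroup Q).subtype :=
  pCore_map_le
    (fun α hα => (mem_autGroup_iff_totA F hQ α).2 (hsub Q _ ((mem_autGroup_iff_totA F₀ hQ α).1 hα)))
    (hp Q hQ)

end Cfsg.Agent.Lib.H38GTPCore
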