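import Mathlib
import Cfsg.Agent.Lib.H38GTDefs


set_option autoImplicit false

namespace Cfsg.Agent.Lib.H38GTPFn

open Cfsg Cfsg.FusionSystem Cfsg.Agent.Lib.Helper87Fusion Cfsg.Agent.Lib.Helper87Fusion2
  Cfsg.Agent.Lib.H38GTDefs

variable {Ω : Type*} [Group Ω] {S : Subgroup Ω}

/-- (G4b) if `Q` is fully `F`-automized, every `p`-element of `Aut_F(Q)` lies in `Aut_{F₀}(Q)`. -/
theorem pelt_fn [Finite S] {p : ℕ} [Fact p.Prime] (F F₀ : FusionSystem S) (hinv : Inv F₀ F)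
    (hfrat : Frat F₀ F) {Q : Subgroup Ω} (hQ : F.IsFullyAutomized p Q) (α : MulAut Q)
    (hα : α ∈ F.autGroup Q) (k : ℕ) (hk : α ^ p ^ k = 1) : α ∈ F₀.autGroup Q := by
  obtain ⟨hQS, R, hR⟩ := hQ
  haveI : Finite Q := Helper86Fusion.finite_of_le hQS
  obtain ⟨β, hβ⟩ := exists_conj_mem_sylow R ⟨α, hα⟩ k (Subtype.ext (by simpa using hk))
  have hβ' : β * ⟨α, hα⟩ * β⁻¹ ∈ (R : Subgroup _) := hβ
  rw [hR, Subgroup.mem_subgroupOf, mem_autInducedBy_iff] at hβ'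
  obtain ⟨s, hs, hsx⟩ := hβ'
  obtain ⟨b0, hb0⟩ : ∃ b0 : MulAut Q, b0 = (β : MulAut Q) := ⟨_, rfl⟩
  have hb0F : b0 ∈ F.autGroup Q := hb0 ▸ β.2
  have hsx' : ∀ x : Q, ((b0 (α (b0⁻¹ x)) : Q) : Ω) = s * x * s⁻¹ := by
    intro x
    rw [← hsx x, hb0]
    rfl
  have hsQ : ∀ x ∈ Q, s * x * s⁻¹ ∈ Q := by
    intro x hx
    rw [← hsx' ⟨x, hx⟩]
    exact (b0 (α (b0⁻¹ ⟨x, hx⟩))).2
  obtain ⟨g, hgdef⟩ : ∃ g, g = totA (b0⁻¹ : MulAut Q) := ⟨_, rfl⟩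
  have hg : IsMap F Q g := by
    rw [hgdef]
    exact (mem_autGroup_iff_totA F hQS _).1 (inv_mem hb0F)
  have hgQ : ∀ x : Q, g x = ((b0⁻¹ x : Q) : Ω) := by
    intro x
    rw [hgdef, totA_apply]
  obtain ⟨b, g₀, hb, hg₀, hgb⟩ := hfrat Q g hg
  obtain ⟨Q₁, hQ₁⟩ := hg₀.exists_image
  obtain ⟨gi, hgi, hgi1, hgi2, hgi3⟩ := hg₀.inv hQ₁
  obtain ⟨b', hb', h1, h2⟩ := exists_inv_top hb
  have hbQ₁ : b '' (Q₁ : Set Ω) = (Q : Set Ω) := by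
    ext y
    constructor
    · rintro ⟨z, hz, rfl⟩
      obtain ⟨x, hx, rfl⟩ := IsMap.exists_of_mem_image hQ₁ hz
      rw [← hgb x hx, hgQ ⟨x, hx⟩]
      exact (b0⁻¹ ⟨x, hx⟩).2
    · intro hy
      refine ⟨g₀ (b0 ⟨y, hy⟩ : Q), IsMap.mem_image hQ₁ (b0 ⟨y, hy⟩).2, ?_⟩
      rw [← hgb _ (b0 ⟨y, hy⟩).2, hgQ]
      simp
  have hθ : IsMap F₀ Q₁ (fun y => g₀ (s * gi y * s⁻¹)) :=
    (hgi.comp (isMap_conj F₀ hQS hs) (fun y hy => IsMap.mem_image hgi3 hy)).comp hg₀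
      (fun y hy => hsQ _ (IsMap.mem_image hgi3 hy))
  have hfin := hinv Q₁ Q b b' _ hb hb' h1 hbQ₁ hθ
  rw [mem_autGroup_iff_totA F₀ hQS α]
  refine hfin.congr (fun x hx => ?_)
  obtain ⟨y, hy⟩ : ∃ y : Q, y = b0 ⟨x, hx⟩ := ⟨_, rfl⟩
  have hgy : g y = x := by
    rw [hgQ, hy]
    simp
  have hb'x : b' x = g₀ y := by
    rw [← hgy, hgb y y.2, h1 _ (hg₀.mem y.2)]
  show b (g₀ (s * gi (b' x) * s⁻¹)) = totA α x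
  rw [hb'x, hgi1 y y.2, ← hgb _ (hsQ y y.2), ← hsx' y, hgQ, totA_of_mem α hx, hy]
  simp

end Cfsg.Agent.Lib.H38GTPFn
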