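import Mathlib
import Cfsg.Agent.Lib.H38GTDefs


set_option autoImplicit false

namespace Cfsg.Agent.Lib.H38GTPTr

open Cfsg Cfsg.FusionSystem Cfsg.Agent.Lib.Helper87Fusion Cfsg.Agent.Lib.Helper87Fusion2
  Cfsg.Agent.Lib.H38GTDefs

variable {Ω : Type*} [Group Ω] {S : Subgroup Ω}

/-- (G4c) transport of the `p`-element property along an `F₀`-conjugation.
PROOF.  `isConj_iff.1 hPQ` : an `F₀`-map `ψ` on `P`, `ψ '' P = Q`; `ψi` its `F₀`-inverse on `Q` (`IsMap.inv`).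
 `Helper89Fusion2.exists_autConj_surj (F := F) (hsub P ψ hψ) hψQ` gives `c : F.autGroup P →* F.autGroup Q` with
 `(c α) (ψ x) = ψ (α x)`.  `(c ⟨α,hα⟩ : MulAut Q) ^ p ^ k = 1` (`map_pow`, `Subtype.ext`, `Subgroup.coe_pow`), so it is in `F₀.autGroup Q` by `hQ`;
 i.e. `totA (c α)` is an `F₀`-map on `Q` (`mem_autGroup_iff_totA F₀ (Q ≤ S)`).  Then `fun x => ψi (totA (c α) (ψ x))` is an `F₀`-map on `P`
 equal to `totA α` on `P`; conclude by `mem_autGroup_iff_totA F₀ (P ≤ S) α` + `IsMap.congr`. -/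
theorem pelt_transport {p : ℕ} (F F₀ : FusionSystem S) (hsub : Sub F₀ F) {P Q : Subgroup Ω}
    (hPQ : F₀.IsConj P Q)
    (hQ : ∀ α ∈ F.autGroup Q, ∀ k : ℕ, α ^ p ^ k = 1 → α ∈ F₀.autGroup Q) :
    ∀ α ∈ F.autGroup P, ∀ k : ℕ, α ^ p ^ k = 1 → α ∈ F₀.autGroup P := by
  intro α hα k hk
  obtain ⟨ψ, hψ, hψQ⟩ := isConj_iff.1 hPQ
  obtain ⟨ψi, hψi, h1, h2, hψiP⟩ := hψ.inv hψQ
  have hPS : P ≤ S := hψ.le
  have hQS : Q ≤ S := hψi.le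
  obtain ⟨c, -, hc⟩ := Helper89Fusion2.exists_autConj_surj (F := F) (hsub P ψ hψ) hψQ
  have hpow : ((c ⟨α, hα⟩ : F.autGroup Q) : MulAut Q) ^ p ^ k = 1 := by
    rw [← Subgroup.coe_pow, ← map_pow]
    have : (⟨α, hα⟩ : F.autGroup P) ^ p ^ k = 1 := Subtype.ext (by
      rw [Subgroup.coe_pow]; exact hk)
    rw [this, map_one]; rfl
  have hmem := hQ _ (c ⟨α, hα⟩).2 k hpow
  have hmap := (mem_autGroup_iff_totA F₀ hQS _).1 hmem
  have hcomp : IsMap F₀ P (fun x => ψi (totA ((c ⟨α, hα⟩ : F.autGroup Q) : MulAut Q) (ψ x))) :=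
    (hψ.comp hmap (fun x hx => IsMap.mem_image hψQ hx)).comp hψi
      (fun x hx => totA_mem _ (IsMap.mem_image hψQ hx))
  rw [mem_autGroup_iff_totA F₀ hPS α]
  refine hcomp.congr (fun x hx => ?_)
  have hx' : ψ x ∈ Q := IsMap.mem_image hψQ hx
  show ψi (totA ((c ⟨α, hα⟩ : F.autGroup Q) : MulAut Q) (ψ x)) = totA α x
  rw [totA_of_mem _ hx']
  have := hc ⟨α, hα⟩ ⟨x, hx⟩ hx'
  rw [this, h1 _ (α ⟨x, hx⟩).2, totA_of_mem α hx]

end Cfsg.Agent.Lib.H38GTPTr
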