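import Mathlib
import Cfsg.Agent.Lib.H38GTDefs


set_option autoImplicit false

namespace Cfsg.Agent.Lib.H38GTRec

open Cfsg Cfsg.FusionSystem Cfsg.Agent.Lib.Helper87Fusion Cfsg.Agent.Lib.Helper87Fusion2
  Cfsg.Agent.Lib.H38GTDefs

variable {Ω : Type*} [Group Ω] {S : Subgroup Ω}

/-- (G5b) an `F`-receptive member of `H` is `F₀`-receptive.
PROOF.  `isReceptive_of hQ.1 (fun P f hf hfQ N hN => ?_)`.  `hfF := hsub P f hf`.  `P ∈ H` : `hHconj Q hQH P (isConj_symm (isConj_iff.2 ⟨f, hfF, hfQ⟩))`.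
 `K P f` by `(h1 P _ f).1 hf`.  `isReceptive_extend hQ hfF hfQ (fun g hg => (hN g).1 hg)` gives an `F`-map `f'` on `N`, `f' = f` on `P`.
 `P ≤ N` : for `g ∈ P` use `(hN g).2 ⟨hfF.le hg, Subgroup.le_normalizer hg, f g, hfF.mem hg, fun x hx => hfF.map_conj hg hx⟩`.
 `N ≤ S` by `hN`.  `N ∈ H` by `hHover`.  `K P f'` by `hcongr`, `K N f'` by `hext`.  So `IsMap F₀ N f'` by `(h1 N _ f').2`. -/
theorem receptive (F F₀ : FusionSystem S) (H : Set (Subgroup Ω))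
    (K : Subgroup Ω → (Ω → Ω) → Prop)
    (hHconj : ∀ P ∈ H, ∀ Q, F.IsConj P Q → Q ∈ H)
    (hHover : ∀ P ∈ H, ∀ Q, P ≤ Q → Q ≤ S → Q ∈ H)
    (hcongr : ∀ (P : Subgroup Ω) (f g : Ω → Ω), (∀ x ∈ P, f x = g x) → K P f → K P g)
    (hext : ∀ (P P' : Subgroup Ω) (f : Ω → Ω), P ∈ H → P ≤ P' → IsMap F P' f → K P f → K P' f)
    (hsub : Sub F₀ F)
    (h1 : ∀ P ∈ H, ∀ f : Ω → Ω, IsMap F₀ P f ↔ IsMap F P f ∧ K P f)
    {Q : Subgroup Ω} (hQH : Q ∈ H) (hQ : F.IsReceptive Q) : F₀.IsReceptive Q := by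
  refine isReceptive_of hQ.1 (fun P f hf hfQ N hN => ?_)
  have hfF := hsub P f hf
  have hPH : P ∈ H := hHconj Q hQH P (isConj_symm (isConj_iff.2 ⟨f, hfF, hfQ⟩))
  have hK : K P f := ((h1 P hPH f).1 hf).2
  obtain ⟨f', hf', hff'⟩ := isReceptive_extend hQ hfF hfQ (fun g hg => (hN g).1 hg)
  have hPN : P ≤ N := fun g hg =>
    (hN g).2 ⟨hfF.le hg, Subgroup.le_normalizer hg, f g, hfF.mem hg,
      fun x hx => hfF.map_conj hg hx⟩
  have hNS : N ≤ S := fun g hg => ((hN g).1 hg).1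
  have hNH : N ∈ H := hHover P hPH N hPN hNS
  have hK' : K P f' := hcongr P f f' (fun x hx => (hff' x hx).symm) hK
  have hK'' : K N f' := hext P N f' hPH hPN hf' hK'
  exact ⟨f', (h1 N hNH f').2 ⟨hf', hK''⟩, hff'⟩

end Cfsg.Agent.Lib.H38GTRec
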