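import Mathlib
import Cfsg.Agent.Lib.H38GTDefs
import Cfsg.Agent.Lib.Helper86Fusion3

set_option autoImplicit false

namespace Cfsg.Agent.Lib.H38GTStarTr

open Cfsg Cfsg.FusionSystem Cfsg.Agent.Lib.Helper87Fusion Cfsg.Agent.Lib.Helper87Fusion2
  Cfsg.Agent.Lib.H38GTDefs

variable {Ω : Type*} [Group Ω] {S : Subgroup Ω}

/-- (G6b) transport of the condition `Aut_S(Q) ∩ O_p(Aut_F(Q)) ≰ Inn(Q)` by an element of `Aut_F(S)`. -/
theorem star_transport [Finite S] {p : ℕ} (F : FusionSystem S) {a : Ω → Ω} (ha : IsMap F S a)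
    {Q Q' : Subgroup Ω} (hQ : Q ≤ S) (hQQ' : a '' (Q : Set Ω) = (Q' : Set Ω))
    (h : ¬ (autInducedBy S Q' ⊓ (pCore p ↥(F.autGroup Q')).map (F.autGroup Q').subtype ≤ Inn Q')) :
    ¬ (autInducedBy S Q ⊓ (pCore p ↥(F.autGroup Q)).map (F.autGroup Q).subtype ≤ Inn Q) := by
  obtain ⟨α', ⟨hα'S, γ, hγ, hγα'⟩, hα'I⟩ := SetLike.not_le_iff_exists.1 h
  obtain ⟨a', ha', h1, h2⟩ := exists_inv_top ha
  have hQ'S : Q' ≤ S := (ha.restrict hQ).image_le hQQ'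
  have himg : a' '' (Q' : Set Ω) = (Q : Set Ω) := image_inv hQ h1 hQQ'
  obtain ⟨c, hc, hcx⟩ := Helper89Fusion2.exists_autConj_surj (ha'.restrict hQ'S) himg
  have hcγ : c γ ∈ pCore p (F.autGroup Q) :=
    Helper89Fusion2.pCore_map_le c hc ⟨γ, hγ, rfl⟩
  have hγα : ∀ x : Q', (((γ : MulAut Q') x : Q') : Ω) = ((α' x : Q') : Ω) := by
    intro x
    rw [← hγα']
    rfl
  rw [SetLike.not_le_iff_exists]
  refine ⟨(c γ : MulAut Q), ⟨?_, ⟨c γ, hcγ, rfl⟩⟩, ?_⟩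
  · obtain ⟨s, hs, hsx⟩ := (mem_autInducedBy_iff S Q' α').1 hα'S
    change _ ∈ autInducedBy S Q
    rw [mem_autInducedBy_iff]
    refine ⟨a' s, ha'.mem hs, fun y => ?_⟩
    have hay : a y ∈ Q' := IsMap.mem_image hQQ' y.2
    have hy : a' (a y) = y := h1 y (hQ y.2)
    have h3 := hcx γ ⟨a y, hay⟩ (by rw [hy]; exact y.2)
    have h4 : (⟨a' ((⟨a y, hay⟩ : Q') : Ω), by rw [hy]; exact y.2⟩ : Q) = y := Subtype.ext hy
    rw [h4, hγα, hsx] at h3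
    rw [h3]
    show a' (s * a y * s⁻¹) = _
    rw [ha'.map_mul (S.mul_mem hs (hQ'S hay)) (S.inv_mem hs), ha'.map_mul hs (hQ'S hay),
      ha'.map_inv hs, hy]
  · intro hI
    apply hα'I
    obtain ⟨g, hg, hgx⟩ := (Helper86Fusion3.mem_inn_iff _).1 hI
    rw [Helper86Fusion3.mem_inn_iff]
    have hag : a g ∈ Q' := IsMap.mem_image hQQ' hg
    refine ⟨a g, hag, fun x => ?_⟩
    have hx' : a' x ∈ Q := IsMap.mem_image himg x.2
    have h3 := hcx γ x hx'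
    rw [hgx, hγα] at h3
    apply ha'.inj (hQ'S (α' x).2)
      (S.mul_mem (S.mul_mem (hQ'S hag) (hQ'S x.2)) (S.inv_mem (hQ'S hag)))
    rw [← h3, ha'.map_mul (S.mul_mem (hQ'S hag) (hQ'S x.2)) (S.inv_mem (hQ'S hag)),
      ha'.map_mul (hQ'S hag) (hQ'S x.2), ha'.map_inv (hQ'S hag), h1 g (hQ hg)]

end Cfsg.Agent.Lib.H38GTStarTr
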