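import Mathlib
import Cfsg.Prelude.Def_Transfer

/-!
# Project RV (rows S3054, S3055; Ruiz–Viruel type bounds).  Vocabulary.

`Q` = an extraspecial group of order `p³` and exponent `p`; `q : Q →* Multiplicative (Fin 2 → ZMod p)`
a coordinate map (surjective, kernel = centre).
-/

set_option autoImplicit false

namespace Cfsg.Agent.H41RV

/-- the plane `𝔽_p²` -/
abbrev V2 (p : ℕ) := Fin 2 → ZMod p

/-- determinant of two vectors -/
def dt {p : ℕ} (u v : V2 p) : ZMod p := u 0 * v 1 - u 1 * v 0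

/-- extraspecial of order `p³` and exponent `p` -/
structure ES (p : ℕ) (Q : Type*) [Group Q] : Prop where
  es : Cfsg.IsExtraspecial p Q
  card : Nat.card Q = p ^ 3
  exp : ∀ x : Q, x ^ p = 1

/-- a coordinate map on `Q` -/
structure IsCoord {p : ℕ} {Q : Type*} [Group Q] (q : Q →* Multiplicative (V2 p)) : Prop where
  surj : Function.Surjective q
  ker : q.ker = Subgroup.center Q

/-- the matrix `M` describes the automorphism `α` in the coordinates `q` -/
def Desc {p : ℕ} {Q : Type*} [Group Q] (q : Q →* Multiplicative (V2 p)) (α : MulAut Q)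
    (M : GL (Fin 2) (ZMod p)) : Prop :=
  ∀ u : Q, (q (α u)).toAdd = (M : Matrix (Fin 2) (Fin 2) (ZMod p)).mulVec (q u).toAdd

/-- `z₀` is a generator of the centre computing commutators -/
def IsZ0 {p : ℕ} {Q : Type*} [Group Q] (q : Q →* Multiplicative (V2 p)) (z₀ : Q) : Prop :=
  z₀ ∈ Subgroup.center Q ∧ z₀ ≠ 1 ∧ ∀ u v : Q, u * v * u⁻¹ * v⁻¹ = z₀ ^ (dt (q u).toAdd (q v).toAdd).val

end Cfsg.Agent.H41RV
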