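import Mathlib
import Cfsg.Agent.Lib.H41RVDefs

set_option autoImplicit false

namespace Cfsg.Agent.H41RV

open scoped commutatorElement

theorem B1_aux_basis (K M : Type*) [Field K] [AddCommGroup M] [Module K M] [Finite M] :
    ∃ k : ℕ, Nonempty (M ≃+ (Fin k → K)) := by
  have : Module.Finite K M := Module.Finite.of_finite
  exact ⟨_, ⟨(Module.finBasis K M).equivFun.toAddEquiv⟩⟩

theorem B1_exists_equiv (p : ℕ) [Fact p.Prime] (A : Type*) [Group A] [Finite A]
    (hcomm : ∀ a b : A, a * b = b * a) (h : ∀ a : A, a ^ p = 1) :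
    ∃ k : ℕ, Nonempty (A ≃* Multiplicative (Fin k → ZMod p)) := by
  let i1 : CommGroup A := { (inferInstance : Group A) with mul_comm := hcomm }
  have hh : ∀ x : Additive A, p • x = 0 := fun x => h (Additive.toMul x)
  let i2 : Module (ZMod p) (Additive A) := AddCommGroup.zmodModule hh
  obtain ⟨k, ⟨e⟩⟩ := B1_aux_basis (ZMod p) (Additive A)
  exact ⟨k, ⟨AddEquiv.toMultiplicativeRight e⟩⟩

/-- **B1**.  Existence of coordinates. -/
theorem exists_q {p : ℕ} [Fact p.Prime] {Q : Type*} [Group Q] [Finite Q] (h : ES p Q) :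
    ∃ q : Q →* Multiplicative (V2 p), IsCoord q := by
  classical
  have hp : p.Prime := Fact.out
  have hcomm : ∀ a b : Q ⧸ Subgroup.center Q, a * b = b * a := by
    intro a b
    induction a using QuotientGroup.induction_on with
    | H x =>
      induction b using QuotientGroup.induction_on with
      | H y =>
        rw [← QuotientGroup.mk_mul, ← QuotientGroup.mk_mul, QuotientGroup.eq]
        rw [← h.es.1.2.2, commutator_def]
        have : (x * y)⁻¹ * (y * x) = ⁅y⁻¹, x⁻¹⁆ := by
          rw [commutatorElement_def]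
          group
        rw [this]
        exact Subgroup.commutator_mem_commutator (Subgroup.mem_top _) (Subgroup.mem_top _)
  have hexp : ∀ a : Q ⧸ Subgroup.center Q, a ^ p = 1 := by
    intro a
    induction a using QuotientGroup.induction_on with
    | H x => rw [← QuotientGroup.mk_pow, h.exp x, QuotientGroup.mk_one]
  obtain ⟨k, ⟨e⟩⟩ := B1_exists_equiv p (Q ⧸ Subgroup.center Q) hcomm hexp
  have hc1 : Nat.card (Q ⧸ Subgroup.center Q) = p ^ k := by
    rw [Nat.card_congr e.toEquiv]
    show Nat.card (Fin k → ZMod p) = p ^ k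
    rw [Nat.card_fun, Nat.card_zmod, Nat.card_fin]
  have hc2 : Nat.card (Q ⧸ Subgroup.center Q) * p = p ^ 3 := by
    have := (Subgroup.center Q).card_eq_card_quotient_mul_card_subgroup
    rw [h.card, h.es.2] at this
    exact this.symm
  have hk : k = 2 := by
    rw [hc1, ← pow_succ] at hc2
    have := Nat.pow_right_injective hp.two_le hc2
    omega
  subst hk
  refine ⟨e.toMonoidHom.comp (QuotientGroup.mk' (Subgroup.center Q)), ?_, ?_⟩
  · exact e.surjective.comp (QuotientGroup.mk'_surjective _)
  · ext x
    rw [MonoidHom.mem_ker]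
    show e (QuotientGroup.mk' (Subgroup.center Q) x) = 1 ↔ _
    rw [map_eq_one_iff e e.injective]
    exact QuotientGroup.eq_one_iff x

end Cfsg.Agent.H41RV
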