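import Mathlib
import Cfsg.Agent.Lib.H41RVDefs

set_option autoImplicit false

namespace Cfsg.Agent.H41RV

theorem B2.zpow_val {p : ℕ} [Fact p.Prime] {Q : Type*} [Group Q] (z : Q) (hz : z ^ p = 1) (a : ℤ) :
    z ^ a = z ^ ((a : ZMod p).val) := by
  rw [← zpow_natCast z (a : ZMod p).val, ZMod.val_intCast]
  conv_lhs => rw [← Int.emod_add_mul_ediv a p]
  rw [zpow_add, zpow_mul, zpow_natCast, hz, one_zpow, mul_one]

/-- **B2** (45m, pure Mathlib).  The commutator form is the determinant. -/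
theorem exists_z0 {p : ℕ} [Fact p.Prime] {Q : Type*} [Group Q] [Finite Q] (h : ES p Q)
    {q : Q →* Multiplicative (V2 p)} (hq : IsCoord q) : ∃ z₀ : Q, IsZ0 q z₀ := by
  have hp : p.Prime := Fact.out
  obtain ⟨x, hx⟩ := hq.surj (Multiplicative.ofAdd ![1, 0])
  obtain ⟨y, hy⟩ := hq.surj (Multiplicative.ofAdd ![0, 1])
  let κ : Q → Q → Q := fun u v => u * v * u⁻¹ * v⁻¹
  have hc : ∀ u v, κ u v ∈ Subgroup.center Q := by
    intro u v
    rw [← h.es.1.2.2, commutator_def]
    exact Subgroup.commutator_mem_commutator (Subgroup.mem_top u) (Subgroup.mem_top v)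
  have hcc : ∀ u v g, g * κ u v = κ u v * g := fun u v g => Subgroup.mem_center_iff.1 (hc u v) g
  have L1 : ∀ u u' v, κ (u * u') v = κ u v * κ u' v := by
    intro u u' v
    have e1 : κ (u * u') v = u * κ u' v * (v * u⁻¹ * v⁻¹) := by
      simp only [κ]; group
    rw [e1, hcc u' v u, hcc u' v (κ u v)]
    simp only [κ]; group
  have L2 : ∀ u v v', κ u (v * v') = κ u v * κ u v' := by
    intro u v v'
    have e1 : κ u (v * v') = (u * v * u⁻¹) * (κ u v' * v⁻¹) := by
      simp only [κ]; group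
    rw [e1, ← hcc u v' v⁻¹]
    simp only [κ]; group
  have K1 : ∀ v, κ 1 v = 1 := by intro v; simp [κ]
  have K2 : ∀ u, κ u 1 = 1 := by intro u; simp [κ]
  have L3 : ∀ u v (n : ℕ), κ (u ^ n) v = κ u v ^ n := by
    intro u v n
    induction n with
    | zero => simp [K1]
    | succ n ih => rw [pow_succ, L1, ih, pow_succ]
  have L4 : ∀ u v (n : ℕ), κ u (v ^ n) = κ u v ^ n := by
    intro u v n
    induction n with
    | zero => simp [K2]
    | succ n ih => rw [pow_succ, L2, ih, pow_succ]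
  have L5 : ∀ c ∈ Subgroup.center Q, ∀ v, κ c v = 1 := by
    intro c hcen v
    have := Subgroup.mem_center_iff.1 hcen v
    simp only [κ]
    rw [← this]; group
  have L6 : ∀ c ∈ Subgroup.center Q, ∀ u, κ u c = 1 := by
    intro c hcen u
    have := Subgroup.mem_center_iff.1 hcen u
    simp only [κ]
    rw [this]; group
  have L7 : ∀ u, κ u u = 1 := by intro u; simp [κ]
  have L8 : ∀ u v, κ v u = (κ u v)⁻¹ := by intro u v; simp only [κ]; group
  -- decomposition
  have hdec : ∀ u : Q, ∃ c ∈ Subgroup.center Q,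
      u = x ^ ((q u).toAdd 0).val * y ^ ((q u).toAdd 1).val * c := by
    intro u
    refine ⟨(x ^ ((q u).toAdd 0).val * y ^ ((q u).toAdd 1).val)⁻¹ * u, ?_, by group⟩
    rw [← hq.ker, MonoidHom.mem_ker]
    apply Multiplicative.toAdd.injective
    simp only [map_mul, map_inv, map_pow, toAdd_mul, toAdd_inv, toAdd_pow, toAdd_one, hx, hy,
      toAdd_ofAdd]
    funext e
    fin_cases e
    · simp
    · simp
  refine ⟨κ x y, hc x y, ?_, ?_⟩
  · intro h1
    -- all commutators trivial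
    have hall : ∀ u v, κ u v = 1 := by
      intro u v
      obtain ⟨c, hcen, hu⟩ := hdec u
      obtain ⟨c', hcen', hv⟩ := hdec v
      have hxv : κ x v = 1 := by
        rw [hv, L2, L2, L4, L4, L7, h1, L6 c' hcen']; simp
      have hyv : κ y v = 1 := by
        rw [hv, L2, L2, L4, L4, L7, L8 x y, h1, L6 c' hcen']; simp
      rw [hu, L1, L1, L3, L3, hxv, hyv, L5 c hcen]; simp
    have htop : Subgroup.center Q = ⊤ := by
      rw [eq_top_iff]
      intro u _
      rw [Subgroup.mem_center_iff]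
      intro g
      have := hall g u
      simp only [κ] at this
      have h2 : g * u = (g * u * g⁻¹ * u⁻¹) * (u * g) := by group
      rw [h2, this, one_mul]
    have hZ : Nat.card (Subgroup.center Q) = p := h.es.2
    rw [htop, Subgroup.card_top, h.card] at hZ
    have h2 := hp.two_le
    nlinarith [pow_pos hp.pos 2, show p ^ 3 = p * p ^ 2 by ring, show p ^ 2 = p * p by ring]
  · intro u v
    show κ u v = _
    obtain ⟨c, hcen, hu⟩ := hdec u
    obtain ⟨c', hcen', hv⟩ := hdec v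
    obtain ⟨i, hi⟩ : ∃ i, i = ((q u).toAdd 0).val := ⟨_, rfl⟩
    obtain ⟨j, hj⟩ : ∃ j, j = ((q u).toAdd 1).val := ⟨_, rfl⟩
    obtain ⟨k, hk⟩ : ∃ k, k = ((q v).toAdd 0).val := ⟨_, rfl⟩
    obtain ⟨l, hl⟩ : ∃ l, l = ((q v).toAdd 1).val := ⟨_, rfl⟩
    rw [← hi, ← hj] at hu
    rw [← hk, ← hl] at hv
    have hxv : κ x v = κ x y ^ l := by
      rw [hv, L2, L2, L4, L4, L7, L6 c' hcen']; simp
    have hyv : κ y v = (κ x y)⁻¹ ^ k := by
      rw [hv, L2, L2, L4, L4, L7, L8 x y, L6 c' hcen']; simp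
    have e1 : κ u v = κ x y ^ ((i : ℤ) * l - j * k) := by
      conv_lhs => rw [hu]
      rw [L1, L1, L3, L3, hxv, hyv, L5 c hcen, mul_one, zpow_sub, zpow_mul, zpow_mul, zpow_natCast,
        zpow_natCast, zpow_natCast, zpow_natCast, inv_pow, inv_pow, ← pow_mul, ← pow_mul, ← pow_mul,
        ← pow_mul, mul_comm l i, mul_comm k j]
    rw [e1, B2.zpow_val (p := p) _ (h.exp _)]
    congr 2
    push_cast
    rw [hi, hj, hk, hl, ZMod.natCast_zmod_val, ZMod.natCast_zmod_val, ZMod.natCast_zmod_val,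
      ZMod.natCast_zmod_val]
    rfl

end Cfsg.Agent.H41RV
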