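import Mathlib
import Cfsg.Agent.Lib.H41RVDefs

set_option autoImplicit false

namespace Cfsg.Agent.H41RV

theorem b3a_mat {p : ℕ} [Fact p.Prime] {Q : Type*} [Group Q]
    {q : Q →* Multiplicative (V2 p)} (hq : IsCoord q) (α : MulAut Q) :
    ∃ M : Matrix (Fin 2) (Fin 2) (ZMod p), ∀ u : Q, (q (α u)).toAdd = M.mulVec (q u).toAdd := by
  have hker : q.ker ≤ (q.comp α.toMonoidHom).ker := by
    intro x hx
    rw [hq.ker] at hx
    rw [MonoidHom.mem_ker, MonoidHom.comp_apply, ← MonoidHom.mem_ker, hq.ker, Subgroup.mem_center_iff]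
    intro y
    obtain ⟨y', rfl⟩ := α.surjective y
    rw [Subgroup.mem_center_iff] at hx
    change α y' * α x = α x * α y'
    rw [← map_mul, ← map_mul, hx y']
  let φ : Multiplicative (V2 p) →* Multiplicative (V2 p) :=
    q.liftOfSurjective hq.surj ⟨q.comp α.toMonoidHom, hker⟩
  have hφ : ∀ u : Q, φ (q u) = q (α u) := by
    intro u
    exact MonoidHom.liftOfRightInverse_comp_apply q _ _ ⟨q.comp α.toMonoidHom, hker⟩ u
  let f : V2 p →+ V2 p := AddMonoidHom.toMultiplicative.symm φ
  have hf : ∀ v : V2 p, f v = (φ (Multiplicative.ofAdd v)).toAdd := fun v => rfl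
  refine ⟨LinearMap.toMatrix' (f.toZModLinearMap p), ?_⟩
  intro u
  rw [LinearMap.toMatrix'_mulVec, AddMonoidHom.coe_toZModLinearMap, hf, ofAdd_toAdd, hφ]

/-- **B3a** (40m, pure Mathlib).  Every automorphism is described by an invertible matrix.
`α` maps `center Q = ker q` to itself, so `q u ↦ q (α u)` is a well defined additive bijection of `Fin 2 → ZMod p`
(use surjectivity of `q`; e.g. define the additive map through `Function.surjInv hq.surj` and check additivity with
`ker`), it is `ZMod p`-linear (`AddMonoidHom.toZModLinearMap`), take `LinearMap.toMatrix'`; the matrix of `α⁻¹` is the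
inverse, which gives the unit (`⟨M, M', _, _⟩ : GL ..`, two matrices agreeing on all vectors are equal). -/
theorem exists_mat {p : ℕ} [Fact p.Prime] {Q : Type*} [Group Q] [Finite Q]
    {q : Q →* Multiplicative (V2 p)} (hq : IsCoord q) (α : MulAut Q) :
    ∃ M : GL (Fin 2) (ZMod p), Desc q α M := by
  obtain ⟨M, hM⟩ := b3a_mat hq α
  obtain ⟨M', hM'⟩ := b3a_mat hq α⁻¹
  have h1 : M * M' = 1 := by
    apply Matrix.mulVec_injective
    funext v
    obtain ⟨u, hu⟩ := hq.surj (Multiplicative.ofAdd v)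
    have hv : v = (q u).toAdd := by rw [hu]; rfl
    rw [← Matrix.mulVec_mulVec, Matrix.one_mulVec, hv, ← hM', ← hM]
    simp
  have h2 : M' * M = 1 := by
    apply Matrix.mulVec_injective
    funext v
    obtain ⟨u, hu⟩ := hq.surj (Multiplicative.ofAdd v)
    have hv : v = (q u).toAdd := by rw [hu]; rfl
    rw [← Matrix.mulVec_mulVec, Matrix.one_mulVec, hv, ← hM, ← hM']
    simp
  exact ⟨⟨M, M', h1, h2⟩, hM⟩

end Cfsg.Agent.H41RV
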