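import Mathlib
import Cfsg.Agent.Lib.H41RVDefs

set_option autoImplicit false

namespace Cfsg.Agent.H41RV

/-- **B3u** (15m, pure Mathlib).  Uniqueness of the describing matrix (`q` is surjective, apply to the preimages
of the two basis vectors, or `Matrix.ext_of_mulVec_single`-type lemma, then `Units.ext`). -/
theorem desc_unique {p : ℕ} {Q : Type*} [Group Q]
    {q : Q →* Multiplicative (V2 p)} (hq : IsCoord q) {α : MulAut Q} {M M' : GL (Fin 2) (ZMod p)}
    (h : Desc q α M) (h' : Desc q α M') : M = M' := by
  apply Units.ext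
  apply Matrix.mulVec_injective
  funext v
  obtain ⟨u, hu⟩ := hq.surj (Multiplicative.ofAdd v)
  have h1 := h u
  have h2 := h' u
  rw [hu] at h1 h2
  rw [h1] at h2
  exact h2

end Cfsg.Agent.H41RV
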