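import Mathlib
import Cfsg.Agent.Lib.H41RVDefs
import Cfsg.Agent.Lib.H41RVB3a
import Cfsg.Agent.Lib.H41RVB3u

set_option autoImplicit false

namespace Cfsg.Agent.H41RV

/-- **B3** (25m).  The describing matrices form a homomorphism: choose `D α` by `exists_mat`
(`Classical.choose`), `map_mul` by `desc_unique` (`Desc q (α*β) (D α * D β)` by `Matrix.mulVec_mulVec`);
use `MonoidHom.mk'`. -/
theorem exists_D {p : ℕ} [Fact p.Prime] {Q : Type*} [Group Q] [Finite Q]
    {q : Q →* Multiplicative (V2 p)} (hq : IsCoord q) :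
    ∃ D : MulAut Q →* GL (Fin 2) (ZMod p), ∀ α : MulAut Q, Desc q α (D α) := by
  classical
  choose D hD using fun α : MulAut Q => exists_mat hq α
  refine ⟨MonoidHom.mk' D ?_, hD⟩
  intro α β
  apply desc_unique hq (hD (α * β))
  intro u
  rw [MulAut.mul_apply, hD α (β u), hD β u, Matrix.mulVec_mulVec]
  rfl

end Cfsg.Agent.H41RV
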