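import Mathlib
import Cfsg.Agent.Lib.H41RVDefs

set_option autoImplicit false

namespace Cfsg.Agent.H41RV

/-- **B4** (40m, pure Mathlib).  The action on the centre is the determinant. -/
theorem det_spec {p : ℕ} [Fact p.Prime] {Q : Type*} [Group Q] [Finite Q] (h : ES p Q)
    {q : Q →* Multiplicative (V2 p)} (hq : IsCoord q) {z₀ : Q} (hz₀ : IsZ0 q z₀)
    {α : MulAut Q} {M : GL (Fin 2) (ZMod p)} (hM : Desc q α M) :
    ∀ z ∈ Subgroup.center Q, α z = z ^ ((M : Matrix (Fin 2) (Fin 2) (ZMod p)).det).val := by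
  have hp : p.Prime := Fact.out
  have : Fact (1 < p) := ⟨hp.one_lt⟩
  obtain ⟨x, hx⟩ := hq.surj (Multiplicative.ofAdd ![1, 0])
  obtain ⟨y, hy⟩ := hq.surj (Multiplicative.ofAdd ![0, 1])
  have h1 : x * y * x⁻¹ * y⁻¹ = z₀ := by
    rw [hz₀.2.2 x y, hx, hy]
    have : dt (Multiplicative.toAdd (Multiplicative.ofAdd (![1, 0] : V2 p)))
        (Multiplicative.toAdd (Multiplicative.ofAdd (![0, 1] : V2 p))) = 1 := by
      simp [dt]
    rw [this, ZMod.val_one, pow_one]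
  have h2 : α z₀ = z₀ ^ ((M : Matrix (Fin 2) (Fin 2) (ZMod p)).det).val := by
    rw [← h1]
    simp only [map_mul, map_inv]
    rw [hz₀.2.2 (α x) (α y), hM x, hM y, hx, hy, h1]
    congr 2
    simp [dt, Matrix.det_fin_two, Matrix.mulVec, dotProduct, Fin.sum_univ_two]
    ring
  intro z hz
  have hc : Nat.card (Subgroup.center Q) = p := h.es.2
  have hne : (⟨z₀, hz₀.1⟩ : Subgroup.center Q) ≠ 1 := by
    intro h'
    exact hz₀.2.1 (congrArg Subtype.val h')
  obtain ⟨k, hk⟩ := Subgroup.mem_zpowers_iff.1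
    (mem_zpowers_of_prime_card (g := (⟨z₀, hz₀.1⟩ : Subgroup.center Q)) (g' := ⟨z, hz⟩) hc hne)
  have hk' : z₀ ^ k = z := congrArg Subtype.val hk
  rw [← hk', map_zpow, h2, ← zpow_natCast, ← zpow_natCast, ← zpow_mul, ← zpow_mul, mul_comm]

end Cfsg.Agent.H41RV
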