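import Mathlib
import Cfsg.Agent.Lib.H41RVDefs
import Cfsg.Agent.Lib.H41RVB3u

set_option autoImplicit false

namespace Cfsg.Agent.H41RV

/-- **B6**.  The matrix group induced by `N_G(P)` has exponent prime to `p`. -/
theorem pow_index_eq_one {G : Type*} [Group G] [Finite G] {p : ℕ} [Fact p.Prime] (P : Sylow p G)
    {q : ↥(P : Subgroup G) →* Multiplicative (V2 p)} (hq : IsCoord q)
    (D : MulAut ↥(P : Subgroup G) →* GL (Fin 2) (ZMod p)) (hD : ∀ α, Desc q α (D α))
    (g : ↥(Subgroup.normalizer ((P : Subgroup G) : Set G))) :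
    (D ((P : Subgroup G).normalizerMonoidHom g)) ^ (P : Subgroup G).index = 1 := by
  have hle : (P : Subgroup G) ≤ Subgroup.normalizer ((P : Subgroup G) : Set G) :=
    Subgroup.le_normalizer
  have h1 : g ^ ((P : Subgroup G).subgroupOf
      (Subgroup.normalizer ((P : Subgroup G) : Set G))).index ∈
      (P : Subgroup G).subgroupOf (Subgroup.normalizer ((P : Subgroup G) : Set G)) :=
    Subgroup.pow_index_mem _ g
  have hdvd : ((P : Subgroup G).subgroupOf
      (Subgroup.normalizer ((P : Subgroup G) : Set G))).index ∣ (P : Subgroup G).index :=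
    Subgroup.relIndex_dvd_index_of_le hle
  have h2 : g ^ (P : Subgroup G).index ∈
      (P : Subgroup G).subgroupOf (Subgroup.normalizer ((P : Subgroup G) : Set G)) := by
    obtain ⟨c, hc⟩ := hdvd
    rw [hc, pow_mul]
    exact Subgroup.pow_mem _ h1 c
  rw [← map_pow, ← map_pow]
  apply desc_unique hq (hD _)
  intro u
  rw [Units.val_one, Matrix.one_mulVec]
  congr 1
  set w := g ^ (P : Subgroup G).index with hw
  have hwP : (w : G) ∈ (P : Subgroup G) := Subgroup.mem_subgroupOf.mp h2
  have hu : (P : Subgroup G).normalizerMonoidHom w u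
      = (⟨(w : G), hwP⟩ : ↥(P : Subgroup G)) * u * (⟨(w : G), hwP⟩ : ↥(P : Subgroup G))⁻¹ := by
    apply Subtype.ext
    rfl
  rw [hu, map_mul, map_mul, map_inv, mul_comm, inv_mul_cancel_left]

end Cfsg.Agent.H41RV
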