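import Mathlib
import Cfsg.Agent.Lib.H41RVDefs

set_option autoImplicit false

namespace Cfsg.Agent.H41RV

/-- **B7** (45m, pure Mathlib).  A subgroup of order `p²` contains the centre and is a line. -/
theorem line_of_sub {p : ℕ} [Fact p.Prime] {Q : Type*} [Group Q] [Finite Q] (h : ES p Q)
    {q : Q →* Multiplicative (V2 p)} (hq : IsCoord q) (A : Subgroup Q) (hA : Nat.card A = p ^ 2) :
    Subgroup.center Q ≤ A ∧ ∃ a ∈ A, (q a).toAdd ≠ 0 ∧ ∀ b ∈ A, ∃ k : ZMod p, (q b).toAdd = k • (q a).toAdd := by
  have hp : p.Prime := Fact.out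
  have hZ : Nat.card (Subgroup.center Q) = p := h.es.2
  have hAc : ∀ a b : A, a * b = b * a := IsPGroup.commutative_of_card_eq_prime_sq hA
  have hZA : Subgroup.center Q ≤ A := by
    by_contra hcon
    have hdvd : Nat.card ↥(Subgroup.center Q ⊓ A) ∣ p := by
      rw [← hZ]
      exact Subgroup.card_dvd_of_le inf_le_left
    have hbot : Subgroup.center Q ⊓ A = ⊥ := by
      rcases (Nat.dvd_prime hp).1 hdvd with h1 | h1
      · exact Subgroup.card_eq_one.1 h1
      · exfalso
        apply hcon
        have : Subgroup.center Q ⊓ A = Subgroup.center Q :=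
          Subgroup.eq_of_le_of_card_ge inf_le_left (by rw [h1, hZ])
        rw [← this]
        exact inf_le_right
    let f : Subgroup.center Q × A → Q := fun x => (x.1 : Q) * (x.2 : Q)
    have hinj : Function.Injective f := by
      rintro ⟨c, a⟩ ⟨c', a'⟩ hf
      have hf' : (c : Q) * a = c' * a' := hf
      have h1 : (c' : Q)⁻¹ * c = a' * (a : Q)⁻¹ := by
        rw [inv_mul_eq_iff_eq_mul, ← mul_assoc, ← hf', mul_assoc, mul_inv_cancel, mul_one]
      have h2 : (c' : Q)⁻¹ * c ∈ Subgroup.center Q ⊓ A :=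
        ⟨(Subgroup.center Q).mul_mem ((Subgroup.center Q).inv_mem c'.2) c.2, by
          rw [h1]; exact A.mul_mem a'.2 (A.inv_mem a.2)⟩
      rw [hbot, Subgroup.mem_bot] at h2
      have h3 : (c : Q) = c' := by
        rw [inv_mul_eq_one] at h2
        exact h2.symm
      have h4 : (a : Q) = a' := by
        rw [h3] at hf'
        exact mul_left_cancel hf'
      exact Prod.ext (Subtype.ext h3) (Subtype.ext h4)
    have hbij : Function.Bijective f := by
      rw [Nat.bijective_iff_injective_and_card]
      refine ⟨hinj, ?_⟩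
      rw [Nat.card_prod, hZ, hA, h.card]
      ring
    have hcomm : ∀ x y : Q, x * y = y * x := by
      intro x y
      obtain ⟨⟨c, a⟩, rfl⟩ := hbij.2 x
      obtain ⟨⟨c', a'⟩, rfl⟩ := hbij.2 y
      have h1 : (a : Q) * a' = a' * a := congrArg Subtype.val (hAc a a')
      have hc := Subgroup.mem_center_iff.1 c.2
      have hc' := Subgroup.mem_center_iff.1 c'.2
      show (c : Q) * a * (c' * a') = c' * a' * (c * a)
      calc (c : Q) * a * (c' * a') = c * (a * c') * a' := by simp only [mul_assoc]
        _ = c * (c' * a) * a' := by rw [hc' a]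
        _ = (c * c') * (a * a') := by simp only [mul_assoc]
        _ = (c' * c) * (a' * a) := by rw [h1, hc c']
        _ = c' * (c * a') * a := by simp only [mul_assoc]
        _ = c' * (a' * c) * a := by rw [hc a']
        _ = c' * a' * (c * a) := by simp only [mul_assoc]
    have htop : Subgroup.center Q = ⊤ := by
      rw [eq_top_iff]
      intro x _
      rw [Subgroup.mem_center_iff]
      intro g
      exact hcomm g x
    rw [htop, Subgroup.card_top, h.card] at hZ
    have h2 := hp.two_le
    nlinarith [pow_pos hp.pos 2, show p ^ 3 = p * p ^ 2 by ring, show p ^ 2 = p * p by ring]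
  refine ⟨hZA, ?_⟩
  obtain ⟨a, haA, haZ⟩ : ∃ a ∈ A, a ∉ Subgroup.center Q := by
    by_contra hcon
    push Not at hcon
    have := Subgroup.card_le_of_le (show A ≤ Subgroup.center Q from hcon)
    rw [hA, hZ] at this
    have h2 := hp.two_le
    nlinarith
  have hv : (q a).toAdd ≠ 0 := by
    intro h0
    apply haZ
    rw [← hq.ker, MonoidHom.mem_ker]
    exact Multiplicative.toAdd.injective h0
  refine ⟨a, haA, hv, ?_⟩
  have hqc : ∀ c : Subgroup.center Q, q (c : Q) = 1 := by
    intro c
    rw [← MonoidHom.mem_ker, hq.ker]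
    exact c.2
  have hval : ∀ (k : ZMod p) (c : Subgroup.center Q), (q (a ^ k.val * c)).toAdd = k • (q a).toAdd := by
    intro k c
    rw [map_mul, hqc, mul_one, map_pow, toAdd_pow, ← Nat.cast_smul_eq_nsmul (ZMod p), ZMod.natCast_zmod_val]
  let g : ZMod p × Subgroup.center Q → A := fun x =>
    ⟨a ^ x.1.val * x.2, A.mul_mem (A.pow_mem haA _) (hZA x.2.2)⟩
  have hginj : Function.Injective g := by
    rintro ⟨k, c⟩ ⟨k', c'⟩ hg
    have hg' : a ^ k.val * (c : Q) = a ^ k'.val * c' := congrArg Subtype.val hg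
    have h1 : k • (q a).toAdd = k' • (q a).toAdd := by rw [← hval k c, ← hval k' c', hg']
    have h2 : k = k' := by
      have h3 : (k - k') • (q a).toAdd = 0 := by rw [sub_smul, h1, sub_self]
      exact sub_eq_zero.1 ((smul_eq_zero.1 h3).resolve_right hv)
    subst h2
    exact Prod.ext rfl (Subtype.ext (mul_left_cancel hg'))
  have hgbij : Function.Bijective g := by
    rw [Nat.bijective_iff_injective_and_card]
    refine ⟨hginj, ?_⟩
    rw [Nat.card_prod, hZ, hA, Nat.card_zmod]
    ring
  intro b hb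
  obtain ⟨⟨k, c⟩, hkc⟩ := hgbij.2 ⟨b, hb⟩
  have : a ^ k.val * (c : Q) = b := congrArg Subtype.val hkc
  exact ⟨k, by rw [← this, hval]⟩

end Cfsg.Agent.H41RV
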