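import Mathlib
import Cfsg.Agent.Lib.H41RVDefs
import Cfsg.Agent.Lib.H41RVB7

set_option autoImplicit false

namespace Cfsg.Agent.H41RV

/-- **B8** (30m).  Different subgroups of order `p²` give different lines.
By `line_of_sub` both contain `center Q = ker q`.  It suffices to show `A ≤ B` (equal finite cardinalities:
`Subgroup.eq_of_le_of_card_ge`).  Let `x ∈ A`.  By `line_of_sub` for `A` (its generator `a'` has `(q a).toAdd = m • (q a').toAdd` with
`m ≠ 0`, so `(q x).toAdd = k' • (q a).toAdd = (k'*k) • (q b).toAdd = (q (b^n)).toAdd`, `n = (k'*k).val`), hence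
`x * (b^n)⁻¹ ∈ ker q = center Q ≤ B` and `x ∈ B`. -/
theorem sub_eq_of_prop {p : ℕ} [Fact p.Prime] {Q : Type*} [Group Q] [Finite Q] (h : ES p Q)
    {q : Q →* Multiplicative (V2 p)} (hq : IsCoord q) (A B : Subgroup Q) (hA : Nat.card A = p ^ 2)
    (hB : Nat.card B = p ^ 2) {a b : Q} (ha : a ∈ A) (hb : b ∈ B) (ha0 : (q a).toAdd ≠ 0)
    {k : ZMod p} (hk : (q a).toAdd = k • (q b).toAdd) : A = B := by
  obtain ⟨-, a', -, -, hA'⟩ := line_of_sub h hq A hA
  obtain ⟨hZB, -⟩ := line_of_sub h hq B hB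
  apply Subgroup.eq_of_le_of_card_ge
  · intro x hx
    obtain ⟨k₁, hk₁⟩ := hA' x hx
    obtain ⟨m, hm⟩ := hA' a ha
    have hm0 : m ≠ 0 := by
      rintro rfl
      rw [zero_smul] at hm
      exact ha0 hm
    have ha' : (q a').toAdd = m⁻¹ • (q a).toAdd := by
      rw [hm, smul_smul, inv_mul_cancel₀ hm0, one_smul]
    have hx' : (q x).toAdd = (k₁ * m⁻¹ * k) • (q b).toAdd := by
      rw [hk₁, ha', hk, smul_smul, smul_smul]
    have hbn : (q (b ^ (k₁ * m⁻¹ * k).val)).toAdd = (k₁ * m⁻¹ * k) • (q b).toAdd := by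
      rw [map_pow, toAdd_pow, ← Nat.cast_smul_eq_nsmul (ZMod p), ZMod.natCast_zmod_val]
    have hker : x * (b ^ (k₁ * m⁻¹ * k).val)⁻¹ ∈ q.ker := by
      rw [MonoidHom.mem_ker, map_mul, map_inv]
      have : q x = q (b ^ (k₁ * m⁻¹ * k).val) := by
        apply Multiplicative.toAdd.injective
        rw [hx', hbn]
      rw [this, mul_inv_cancel]
    rw [hq.ker] at hker
    have := mul_mem (hZB hker) (pow_mem hb (k₁ * m⁻¹ * k).val)
    rwa [inv_mul_cancel_right] at this
  · rw [hA, hB]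

end Cfsg.Agent.H41RV
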