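import Mathlib
import Cfsg.Agent.Lib.H41RVDefs

set_option autoImplicit false

namespace Cfsg.Agent.H41RV

theorem C0.center_pow {p : ℕ} [Fact p.Prime] {Q : Type*} [Group Q] [Finite Q] (h : ES p Q)
    (z : Q) (hz : z ∈ Subgroup.center Q) (hz1 : z ≠ 1) (c : Q) (hc : c ∈ Subgroup.center Q) :
    ∃ n : ℕ, c = z ^ n := by
  have hcard : Nat.card (Subgroup.center Q) = p := h.es.2
  have hne : (⟨z, hz⟩ : Subgroup.center Q) ≠ 1 := by
    intro h'
    exact hz1 (congrArg Subtype.val h')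
  have h1 := mem_zpowers_of_prime_card (g := (⟨z, hz⟩ : Subgroup.center Q)) (g' := ⟨c, hc⟩) hcard hne
  rw [← mem_powers_iff_mem_zpowers] at h1
  obtain ⟨n, hn⟩ := h1
  exact ⟨n, (congrArg Subtype.val hn).symm⟩

/-- **C0** (45m, pure Mathlib).  A complement generator `y`. -/
theorem exists_y {p : ℕ} [Fact p.Prime] {Q : Type*} [Group Q] [Finite Q] (h : ES p Q)
    {q : Q →* Multiplicative (V2 p)} (hq : IsCoord q) {z₀ : Q} (hz₀ : IsZ0 q z₀)
    (z a : Q) (hz : z ∈ Subgroup.center Q) (hz1 : z ≠ 1) (ha : (q a).toAdd ≠ 0) :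
    ∃ y : Q, y * a * y⁻¹ = a * z ∧ ∀ u : Q, ∃ k i j : ℕ, u = y ^ k * a ^ i * z ^ j := by
  have hp : p.Prime := Fact.out
  obtain ⟨m, hm⟩ := C0.center_pow h z₀ hz₀.1 hz₀.2.1 z hz
  have hm0 : (m : ZMod p) ≠ 0 := by
    intro h0
    rw [ZMod.natCast_eq_zero_iff] at h0
    obtain ⟨t, rfl⟩ := h0
    rw [pow_mul, h.exp, one_pow] at hm
    exact hz1 hm
  obtain ⟨v, hv⟩ : ∃ v : V2 p, v = (q a).toAdd := ⟨_, rfl⟩
  rw [← hv] at ha
  obtain ⟨w, hw⟩ : ∃ w : V2 p, dt w v = (m : ZMod p) := by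
    by_cases h1 : v 1 = 0
    · have h0 : v 0 ≠ 0 := by
        intro h0
        apply ha
        funext i
        fin_cases i
        · exact h0
        · exact h1
      refine ⟨![0, -(m : ZMod p) / v 0], ?_⟩
      simp [dt]
      field_simp
    · refine ⟨![(m : ZMod p) / v 1, 0], ?_⟩
      simp [dt]
      field_simp
  obtain ⟨y, hy⟩ := hq.surj (Multiplicative.ofAdd w)
  have hyw : (q y).toAdd = w := by rw [hy]; rfl
  refine ⟨y, ?_, ?_⟩
  · have h1 := hz₀.2.2 y a
    rw [hyw, ← hv, hw, ZMod.val_natCast, ← pow_eq_pow_mod m (h.exp z₀), ← hm] at h1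
    have h2 : y * a * y⁻¹ = z * a := by
      rw [← h1]
      group
    rw [h2]
    exact (Subgroup.mem_center_iff.1 hz a).symm
  · intro u
    obtain ⟨t, ht⟩ : ∃ t : V2 p, t = (q u).toAdd := ⟨_, rfl⟩
    obtain ⟨k, hk⟩ : ∃ k : ZMod p, k = dt t v / (m : ZMod p) := ⟨_, rfl⟩
    obtain ⟨i, hi⟩ : ∃ i : ZMod p, i = dt w t / (m : ZMod p) := ⟨_, rfl⟩
    have hsol : k • w + i • v = t := by
      have hD : w 0 * v 1 - w 1 * v 0 = (m : ZMod p) := hw
      funext e
      fin_cases e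
      · simp only [Pi.add_apply, Pi.smul_apply, smul_eq_mul, hk, hi, dt, Fin.zero_eta]
        field_simp
        linear_combination (t 0) * hD
      · simp only [Pi.add_apply, Pi.smul_apply, smul_eq_mul, hk, hi, dt, Fin.mk_one]
        field_simp
        linear_combination (t 1) * hD
    have hker : (y ^ k.val * a ^ i.val)⁻¹ * u ∈ q.ker := by
      rw [MonoidHom.mem_ker]
      apply Multiplicative.toAdd.injective
      simp only [map_mul, map_inv, map_pow, toAdd_mul, toAdd_inv, toAdd_pow, toAdd_one]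
      rw [hyw, ← hv, ← ht, ← hsol]
      have e1 : k.val • w = k • w := by
        rw [← Nat.cast_smul_eq_nsmul (ZMod p), ZMod.natCast_zmod_val]
      have e2 : i.val • v = i • v := by
        rw [← Nat.cast_smul_eq_nsmul (ZMod p), ZMod.natCast_zmod_val]
      rw [e1, e2]
      abel
    rw [hq.ker] at hker
    obtain ⟨j, hj⟩ := C0.center_pow h z hz hz1 _ hker
    exact ⟨k.val, i.val, j, by rw [← hj]; group⟩

end Cfsg.Agent.H41RV
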