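import Mathlib
import Cfsg.Agent.Lib.H41RVDefs

set_option autoImplicit false

namespace Cfsg.Agent.H41RV

open Subgroup in
theorem c1_exists_aut {A : Type*} [Group A] [Finite A] {p : ℕ} [Fact p.Prime]
    (hA : Nat.card A = p ^ 2) (hexp : ∀ x : A, x ^ p = 1) (z a : A) (hz1 : z ≠ 1)
    (haz : a ∉ Subgroup.zpowers z) (c : A) (hc : c ∈ Subgroup.zpowers a) (hc1 : c ≠ 1) :
    ∃ φ : MulAut A, orderOf φ = p ∧ φ z = z * c ∧ φ a = a := by
  classical
  have hp : p.Prime := Fact.out
  have hcomm : ∀ x y : A, x * y = y * x :=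
    (IsPGroup.isMulCommutative_of_card_eq_prime_sq hA).is_comm.comm
  have ha1 : a ≠ 1 := fun h => haz (h ▸ one_mem _)
  have hoa : orderOf a = p := orderOf_eq_prime (hexp a) ha1
  have hoz : orderOf z = p := orderOf_eq_prime (hexp z) hz1
  have hza : z ∉ zpowers a := by
    intro h
    have h1 : zpowers z ≤ zpowers a := zpowers_le.2 h
    have h2 : zpowers z = zpowers a :=
      Subgroup.eq_of_le_of_card_ge h1 (by rw [Nat.card_zpowers, Nat.card_zpowers, hoa, hoz])
    exact haz (h2 ▸ mem_zpowers a)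
  have hN : (zpowers a).Normal :=
    ⟨fun n hn g => by rw [hcomm g n, mul_inv_cancel_right]; exact hn⟩
  have hQ : Nat.card (A ⧸ zpowers a) = p := by
    have h1 := Subgroup.card_eq_card_quotient_mul_card_subgroup (zpowers a)
    rw [hA, Nat.card_zpowers, hoa, sq] at h1
    exact (Nat.eq_of_mul_eq_mul_right hp.pos h1).symm
  set zb : A ⧸ zpowers a := QuotientGroup.mk z with hzbdef
  have hzb : zb ≠ 1 := by
    intro h
    exact hza ((QuotientGroup.eq_one_iff z).1 h)
  have hgen : ∀ x : A ⧸ zpowers a, x ∈ zpowers zb := fun x => mem_zpowers_of_prime_card hQ hzb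
  have hozb : orderOf zb = p :=
    orderOf_eq_prime (by rw [hzbdef, ← QuotientGroup.mk_pow, hexp]; rfl) hzb
  have hdvd : orderOf c ∣ orderOf zb := by
    rw [hozb]
    exact orderOf_dvd_of_pow_eq_one (hexp c)
  set ψ : (A ⧸ zpowers a) →* A := monoidHomOfForallMemZpowers hgen hdvd with hψ
  have hψz : ψ zb = c := monoidHomOfForallMemZpowers_apply_gen hgen hdvd
  set d : A →* A := ψ.comp (QuotientGroup.mk' (zpowers a)) with hd
  have hdz : d z = c := hψz
  have hda : ∀ x ∈ zpowers a, d x = 1 := by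
    intro x hx
    show ψ (QuotientGroup.mk x) = 1
    rw [(QuotientGroup.eq_one_iff x).2 hx, map_one]
  have hdd : ∀ x, d (d x) = 1 := by
    intro x
    obtain ⟨k, hk⟩ := hgen (QuotientGroup.mk x)
    have h1 : d x = c ^ k := by
      show ψ (QuotientGroup.mk x) = _
      rw [← hk]
      show ψ (zb ^ k) = _
      rw [map_zpow, hψz]
    rw [h1]
    exact hda _ (zpow_mem hc k)
  let φ : MulAut A :=
    { toFun := fun x => x * d x
      invFun := fun x => x * (d x)⁻¹
      left_inv := fun x => by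
        show x * d x * (d (x * d x))⁻¹ = x
        rw [map_mul, hdd, mul_one, mul_inv_cancel_right]
      right_inv := fun x => by
        show x * (d x)⁻¹ * d (x * (d x)⁻¹) = x
        rw [map_mul, map_inv, hdd, inv_one, mul_one, inv_mul_cancel_right]
      map_mul' := fun x y => by
        show x * y * d (x * y) = x * d x * (y * d y)
        rw [map_mul, mul_assoc, mul_assoc, ← mul_assoc y, hcomm y (d x), mul_assoc] }
  have hφ : ∀ x, φ x = x * d x := fun _ => rfl
  have hpow : ∀ n : ℕ, ∀ x, (φ ^ n) x = x * (d x) ^ n := by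
    intro n
    induction n with
    | zero => intro x; simp
    | succ n ih =>
      intro x
      rw [pow_succ', MulAut.mul_apply, ih, hφ, map_mul, map_pow, hdd, one_pow, mul_one, pow_succ,
        mul_assoc]
  refine ⟨φ, orderOf_eq_prime ?_ ?_, ?_, ?_⟩
  · ext x
    rw [hpow, hexp, mul_one]
    rfl
  · intro h
    have h1 : φ z = z := by rw [h]; rfl
    rw [hφ, hdz] at h1
    exact hc1 (by simpa using h1)
  · rw [hφ, hdz]
  · rw [hφ, hda a (mem_zpowers a), mul_one]

/-- **C1** (60m, pure Mathlib; START EARLY).  The transvection `z ↦ z a^s, a ↦ a` of `A` is induced by `G`. -/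
theorem sigma_of_hSL {G : Type*} [Group G] [Finite G] {p : ℕ} [Fact p.Prime] (A : Subgroup G)
    (hA : Nat.card A = p ^ 2) (hexp : ∀ x ∈ A, x ^ p = 1) (z a : G) (hz : z ∈ A) (ha : a ∈ A) (hz1 : z ≠ 1)
    (haz : a ∉ Subgroup.zpowers z)
    (hSL : ∀ φ : MulAut ↥A, orderOf φ = p → ∃ g : G, ∀ b : ↥A, (φ b : G) = g * (b : G) * g⁻¹) :
    ∀ s : ℕ, ∃ g : G, g * z * g⁻¹ = z * a ^ s ∧ g * a * g⁻¹ = a := by
  intro s
  by_cases hs : a ^ s = 1
  · exact ⟨1, by simp [hs], by simp⟩
  obtain ⟨φ, ho, h1, h2⟩ := c1_exists_aut (A := ↥A) hA (fun x => Subtype.ext (hexp x x.2))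
    ⟨z, hz⟩ ⟨a, ha⟩ (fun h => hz1 (congrArg Subtype.val h))
    (by
      rintro ⟨k, hk⟩
      exact haz ⟨k, by simpa using congrArg Subtype.val hk⟩)
    (⟨a, ha⟩ ^ s) (pow_mem (Subgroup.mem_zpowers _) s)
    (fun h => hs (by simpa using congrArg Subtype.val h))
  obtain ⟨g, hg⟩ := hSL φ ho
  refine ⟨g, ?_, ?_⟩
  · rw [← hg ⟨z, hz⟩, h1]
    rfl
  · rw [← hg ⟨a, ha⟩, h2]

end Cfsg.Agent.H41RV
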