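import Mathlib
import Cfsg.Agent.Lib.H41RVDefs

set_option autoImplicit false

namespace Cfsg.Agent.H41RV

/-- **C2a** (50m, pure Mathlib).  A Sylow subgroup with centre `⟨a⟩` containing `z`.
By `hconj` there is `g` with `g z g⁻¹ = a`.  `P₁ := g P g⁻¹` (`g • P`) is a Sylow `p`-subgroup of `G` all of whose elements commute with `a`, i.e.
`P₁ ≤ C := centralizer {a}`.  `⟨z,a⟩ ≤ C` is a `p`-subgroup (inside `P`), so it lies in a Sylow `p`-subgroup of `C`
(`IsPGroup.exists_le_sylow`), which is `C`-conjugate to the Sylow subgroup `P₁` of `C` (`P₁` is Sylow in `C` because it is Sylow in `G`: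
`Sylow.subtype`/cardinality).  So there is `c ∈ C` with `z ∈ c P₁ c⁻¹`.  Take `k := c * g`: `k z k⁻¹ = c a c⁻¹ = a` and `z ∈ k P k⁻¹`. -/
theorem exists_conj_sylow {G : Type*} [Group G] [Finite G] {p : ℕ} [Fact p.Prime] (P : Sylow p G)
    (z a : G) (hzP : z ∈ (P : Subgroup G)) (haP : a ∈ (P : Subgroup G))
    (hzc : ∀ u ∈ (P : Subgroup G), z * u = u * z) (g : G) (hg : g * z * g⁻¹ = a) :
    ∃ k : G, k * z * k⁻¹ = a ∧ k⁻¹ * z * k ∈ (P : Subgroup G) := by
  classical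
  set C : Subgroup G := Subgroup.centralizer ({a} : Set G) with hC
  have hmemP : ∀ x : G, x ∈ ((g • P : Sylow p G) : Subgroup G) ↔ g⁻¹ * x * g ∈ (P : Subgroup G) := by
    intro x
    rw [Sylow.coe_subgroup_smul, Subgroup.mem_pointwise_smul_iff_inv_smul_mem]
    simp [MulAut.smul_def, MulAut.conj_inv_apply]
  have hP1 : ((g • P : Sylow p G) : Subgroup G) ≤ C := by
    intro x hx
    rw [hmemP] at hx
    rw [hC, Subgroup.mem_centralizer_singleton_iff, ← hg]
    have h1 := hzc _ hx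
    calc x * (g * z * g⁻¹) = g * ((g⁻¹ * x * g) * z) * g⁻¹ := by group
      _ = g * (z * (g⁻¹ * x * g)) * g⁻¹ := by rw [h1]
      _ = g * z * g⁻¹ * x := by group
  have hzC : z ∈ C := by
    rw [hC, Subgroup.mem_centralizer_singleton_iff]
    exact hzc a haP
  obtain ⟨Q, hQ⟩ := (P.2.comap_subtype (K := C)).exists_le_sylow
  obtain ⟨c, hc⟩ := MulAction.exists_smul_eq C ((g • P : Sylow p G).subtype hP1) Q
  have h1 : (⟨z, hzC⟩ : C) ∈ (Q : Subgroup C) := hQ (show z ∈ (P : Subgroup G) from hzP)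
  rw [← hc, Sylow.coe_subgroup_smul, Subgroup.mem_pointwise_smul_iff_inv_smul_mem] at h1
  have h2 : (MulAut.conj c)⁻¹ • (⟨z, hzC⟩ : C) = c⁻¹ * ⟨z, hzC⟩ * c := by
    simp [MulAut.smul_def, MulAut.conj_inv_apply]
  rw [h2, Sylow.coe_subtype, Subgroup.mem_subgroupOf, hmemP] at h1
  have hcc : (c : G) * a = a * c := Subgroup.mem_centralizer_singleton_iff.1 c.2
  refine ⟨c * g, ?_, ?_⟩
  · calc (c : G) * g * z * ((c : G) * g)⁻¹ = c * (g * z * g⁻¹) * (c : G)⁻¹ := by group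
      _ = c * a * (c : G)⁻¹ := by rw [hg]
      _ = a := by rw [hcc]; group
  · have h3 : ((c : G) * g)⁻¹ * z * ((c : G) * g) = g⁻¹ * ((c : G)⁻¹ * z * c) * g := by group
    rw [h3]
    simpa using h1

end Cfsg.Agent.H41RV
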