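import Mathlib
import Cfsg.Agent.Lib.H41RVDefs
import Cfsg.Agent.Lib.H41RVC2a

set_option autoImplicit false

namespace Cfsg.Agent.H41RV

theorem c2_zpowers_eq {G : Type*} [Group G] [Finite G] {p : ℕ} [Fact p.Prime] (x y : G) (hx : x ^ p = 1)
    (hy : y ^ p = 1) (hy1 : y ≠ 1) (hyx : y ∈ Subgroup.zpowers x) :
    Subgroup.zpowers y = Subgroup.zpowers x := by
  have hx1 : x ≠ 1 := by
    rintro rfl
    rw [Subgroup.zpowers_one_eq_bot, Subgroup.mem_bot] at hyx
    exact hy1 hyx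
  apply Subgroup.eq_of_le_of_card_ge (Subgroup.zpowers_le.2 hyx)
  rw [Nat.card_zpowers, Nat.card_zpowers, orderOf_eq_prime hx hx1, orderOf_eq_prime hy hy1]

/-- **C2** (45m).  If `z` (central in `P`) is `G`-conjugate to the non-central `a ∈ P`, the transvections `z ↦ z a^s, a ↦ a` are induced.
`exists_conj_sylow` gives `k` with `k z k⁻¹ = a`, `z' := k⁻¹ z k ∈ P`.  `z'` is not central in `P`: otherwise `z' ∈ center = ⟨z⟩` (prime order `p`,
`hcen`), `z' = z^n`, and conjugating by `k`: `z = a^n`, so `a` (a power of `z`, as `p ∤ n`) would be central, contradiction with `hac`.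
So some `w ∈ P` has `w z' w⁻¹ z'⁻¹ ≠ 1`; this commutator is central in `P` (`hcl`), so it is `z^r`, `p ∤ r` (`hcen`).
Conjugating by `k`: `w₁ := k w k⁻¹` satisfies `w₁ z w₁⁻¹ = a^r z = z a^r` and `w₁ a w₁⁻¹ = a` (as `w z w⁻¹ = z`).
By induction `w₁^n z w₁^(-n) = z a^(r n)`; choose `n` with `r n ≡ s mod p` (`a^p = 1`). -/
theorem sigma_of_conj {G : Type*} [Group G] [Finite G] {p : ℕ} [Fact p.Prime] (P : Sylow p G)
    (hexp : ∀ u ∈ (P : Subgroup G), u ^ p = 1)
    (z a : G) (hzP : z ∈ (P : Subgroup G)) (haP : a ∈ (P : Subgroup G)) (hz1 : z ≠ 1)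
    (hzc : ∀ u ∈ (P : Subgroup G), z * u = u * z)
    (hcen : ∀ c ∈ (P : Subgroup G), (∀ u ∈ (P : Subgroup G), c * u = u * c) → c ∈ Subgroup.zpowers z)
    (hcl : ∀ u ∈ (P : Subgroup G), ∀ v ∈ (P : Subgroup G), u * v * u⁻¹ * v⁻¹ ∈ Subgroup.zpowers z)
    (hac : ¬ ∀ u ∈ (P : Subgroup G), a * u = u * a) (g : G) (hg : g * z * g⁻¹ = a) :
    ∀ s : ℕ, ∃ g : G, g * z * g⁻¹ = z * a ^ s ∧ g * a * g⁻¹ = a := by
  intro s
  obtain ⟨k, hk, hz'P⟩ := exists_conj_sylow P z a hzP haP hzc g hg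
  set z' := k⁻¹ * z * k with hz'
  have hkz' : k * z' * k⁻¹ = z := by rw [hz']; group
  have ha1 : a ≠ 1 := by
    intro h
    rw [h] at hk
    apply hz1
    have : z = k⁻¹ * (k * z * k⁻¹) * k := by group
    rw [this, hk]
    group
  have hconj_zpow : ∀ (x : G) (n : ℤ), k * x ^ n * k⁻¹ = (k * x * k⁻¹) ^ n := by
    intro x n
    exact (conj_zpow).symm
  -- powers of `z` are central in `P`
  have hzpc : ∀ c ∈ Subgroup.zpowers z, ∀ u ∈ (P : Subgroup G), c * u = u * c := by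
    intro c hc u hu
    obtain ⟨n, rfl⟩ := Subgroup.mem_zpowers_iff.1 hc
    exact ((show Commute z u from hzc u hu).zpow_left n).eq
  have hnc : ¬ ∀ u ∈ (P : Subgroup G), z' * u = u * z' := by
    intro hcent
    obtain ⟨n, hn⟩ := Subgroup.mem_zpowers_iff.1 (hcen z' hz'P hcent)
    have hzan : z = a ^ n := by
      rw [← hkz', ← hn, hconj_zpow, hk]
    have hza : z ∈ Subgroup.zpowers a := Subgroup.mem_zpowers_iff.2 ⟨n, hzan.symm⟩
    have heq := c2_zpowers_eq a z (hexp a haP) (hexp z hzP) hz1 hza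
    have haz : a ∈ Subgroup.zpowers z := by rw [heq]; exact Subgroup.mem_zpowers a
    exact hac (hzpc a haz)
  push Not at hnc
  obtain ⟨w, hwP, hw⟩ := hnc
  obtain ⟨r, hr⟩ := Subgroup.mem_zpowers_iff.1 (hcl w hwP z' hz'P)
  have hc1 : w * z' * w⁻¹ * z'⁻¹ ≠ 1 := by
    intro h
    apply hw
    have : w * z' = (w * z' * w⁻¹ * z'⁻¹) * (z' * w) := by group
    rw [h, one_mul] at this
    exact this.symm
  set b := a ^ r with hb
  have hbc : k * (w * z' * w⁻¹ * z'⁻¹) * k⁻¹ = b := by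
    rw [← hr, hconj_zpow, hk]
  have hb1 : b ≠ 1 := by
    intro h
    rw [h] at hbc
    apply hc1
    have : w * z' * w⁻¹ * z'⁻¹ = k⁻¹ * (k * (w * z' * w⁻¹ * z'⁻¹) * k⁻¹) * k := by group
    rw [this, hbc]
    group
  have hbp : b ^ p = 1 := by
    rw [hb, ← zpow_natCast, ← zpow_mul, mul_comm, zpow_mul, zpow_natCast, hexp a haP, one_zpow]
  have hba : b ∈ Subgroup.zpowers a := Subgroup.mem_zpowers_iff.2 ⟨r, rfl⟩
  have heq := c2_zpowers_eq a b (hexp a haP) hbp hb1 hba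
  have has : a ^ s ∈ Subgroup.zpowers b := by
    rw [heq]
    exact Subgroup.npow_mem_zpowers a s
  rw [← mem_powers_iff_mem_zpowers] at has
  obtain ⟨n, hn⟩ := has
  have hn' : b ^ n = a ^ s := hn
  set w₁ := k * w * k⁻¹ with hw₁
  have hcza : Commute z a := hzc a haP
  have hczb : Commute z b := hcza.zpow_right r
  have S1 : SemiconjBy w₁ z (z * b) := by
    unfold SemiconjBy
    have e : w₁ * z * w₁⁻¹ * z⁻¹ = b := by
      rw [← hbc, hw₁, ← hkz']
      group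
    have : w₁ * z = (w₁ * z * w₁⁻¹ * z⁻¹) * z * w₁ := by group
    rw [this, e, hczb.eq]
  have S2 : SemiconjBy w₁ a a := by
    unfold SemiconjBy
    rw [hw₁, ← hk]
    have : w * z = z * w := (hzc w hwP).symm
    calc k * w * k⁻¹ * (k * z * k⁻¹) = k * (w * z) * k⁻¹ := by group
      _ = k * (z * w) * k⁻¹ := by rw [this]
      _ = k * z * k⁻¹ * (k * w * k⁻¹) := by group
  have S3 : SemiconjBy w₁ b b := S2.zpow_right r
  have S4 : ∀ m : ℕ, SemiconjBy (w₁ ^ m) z (z * b ^ m) := by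
    intro m
    induction m with
    | zero => simp
    | succ m ih =>
      rw [pow_succ']
      have h := S1.mul_right (S3.pow_right m)
      rw [mul_assoc, ← pow_succ'] at h
      exact h.mul_left ih
  refine ⟨w₁ ^ n, ?_, ?_⟩
  · rw [(S4 n).eq, mul_inv_cancel_right, hn']
  · rw [(show SemiconjBy (w₁ ^ n) a a from Commute.pow_left S2 n).eq, mul_inv_cancel_right]

end Cfsg.Agent.H41RV
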