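import Mathlib
import Cfsg.Agent.Lib.H41RVDefs

set_option autoImplicit false

namespace Cfsg.Agent.H41RV

/-- `g` has type `(i,j;k,l)` -/
def C3T {G : Type*} [Group G] (z a g : G) (i j k l : ℕ) : Prop :=
  g * z * g⁻¹ = z ^ i * a ^ j ∧ g * a * g⁻¹ = z ^ k * a ^ l

theorem c3_aux {G : Type*} [Group G] (z a g : G) (hza : z * a = a * z) (i j k l m n : ℕ)
    (h : C3T z a g i j k l) :
    g * (z ^ m * a ^ n) * g⁻¹ = z ^ (i * m + k * n) * a ^ (j * m + l * n) := by
  have hc : Commute z a := hza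
  rw [← conj_mul, ← conj_pow, ← conj_pow, h.1, h.2, (hc.pow_pow i j).mul_pow,
    (hc.pow_pow k l).mul_pow, ← pow_mul, ← pow_mul, ← pow_mul, ← pow_mul, pow_add, pow_add]
  exact Commute.mul_mul_mul_comm (hc.pow_pow _ _).symm _ _

theorem c3_type_mul {G : Type*} [Group G] (z a : G) (hza : z * a = a * z) {g g' : G}
    {i j k l i' j' k' l' : ℕ} (h : C3T z a g i j k l) (h' : C3T z a g' i' j' k' l') :
    C3T z a (g * g') (i * i' + k * j') (j * i' + l * j') (i * k' + k * l') (j * k' + l * l') := by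
  constructor
  · have h1 : g * g' * z * (g * g')⁻¹ = g * (g' * z * g'⁻¹) * g⁻¹ := by group
    rw [h1, h'.1]
    exact c3_aux z a g hza i j k l i' j' h
  · have h1 : g * g' * a * (g * g')⁻¹ = g * (g' * a * g'⁻¹) * g⁻¹ := by group
    rw [h1, h'.2]
    exact c3_aux z a g hza i j k l k' l' h

theorem c3_pow_eq {G : Type*} [Group G] {p : ℕ} (x : G) (hx : x ^ p = 1) (N M : ℕ)
    (h : (N : ZMod p) = M) : x ^ N = x ^ M := by
  rw [pow_eq_pow_mod N hx, pow_eq_pow_mod M hx, (ZMod.natCast_eq_natCast_iff' N M p).1 h]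

/-- **C3** (50m, pure group computation).  The torus element as a product of transvections. -/
theorem torus_elt {G : Type*} [Group G] {p : ℕ} [Fact p.Prime] (z a y : G) (hza : z * a = a * z)
    (hzy : z * y = y * z) (hya : y * a * y⁻¹ = a * z) (hz : z ^ p = 1) (ha : a ^ p = 1)
    (hσ : ∀ s : ℕ, ∃ g : G, g * z * g⁻¹ = z * a ^ s ∧ g * a * g⁻¹ = a)
    (t t' : ℕ) (htt : t * t' % p = 1) : ∃ g : G, g * z * g⁻¹ = z ^ t ∧ g * a * g⁻¹ = a ^ t' := by
  have hp : p.Prime := Fact.out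
  have hy1 : C3T z a y 1 0 1 1 := by
    constructor
    · rw [pow_one, pow_zero, mul_one, ← hzy, mul_inv_cancel_right]
    · rw [pow_one, pow_one, hya, hza]
  have hX : ∀ s : ℕ, C3T z a (y ^ s) 1 0 s 1 := by
    intro s
    induction s with
    | zero => constructor <;> simp
    | succ s ih =>
      have h1 := c3_type_mul z a hza hy1 ih
      simp only [mul_one, one_mul, mul_zero, zero_mul, add_zero, zero_add] at h1
      rw [pow_succ']
      exact h1
  have hY : ∀ s : ℕ, ∃ g : G, C3T z a g 1 s 0 1 := by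
    intro s
    obtain ⟨g, h1, h2⟩ := hσ s
    exact ⟨g, by rw [h1, pow_one], by rw [h2, pow_zero, one_mul, pow_one]⟩
  obtain ⟨n, hn⟩ : ∃ n : ℕ, (n : ZMod p) = -1 := ⟨p - 1, by
    rw [Nat.cast_sub hp.one_lt.le]; simp⟩
  have htt' : (t : ZMod p) * (t' : ZMod p) = 1 := by
    have h1 : ((t * t' : ℕ) : ZMod p) = ((1 : ℕ) : ZMod p) := by
      rw [ZMod.natCast_eq_natCast_iff', htt, Nat.mod_eq_of_lt hp.one_lt]
    simpa using h1
  obtain ⟨g1, hg1⟩ := hY (n * t')
  obtain ⟨g2, hg2⟩ := hY 1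
  have h := c3_type_mul z a hza (c3_type_mul z a hza (c3_type_mul z a hza
    (c3_type_mul z a hza (c3_type_mul z a hza (hX t) hg1) (hX t)) (hX n)) hg2) (hX n)
  refine ⟨y ^ t * g1 * y ^ t * y ^ n * g2 * y ^ n, ?_, ?_⟩
  · rw [h.1]
    rw [c3_pow_eq z hz _ t, c3_pow_eq a ha _ 0, pow_zero, mul_one]
    · push_cast
      simp only [hn]
      linear_combination (-1 : ZMod p) * htt'
    · push_cast
      simp only [hn]
      linear_combination (-(t : ZMod p)) * htt'
  · rw [h.2]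
    rw [c3_pow_eq z hz _ 0, c3_pow_eq a ha _ t', pow_zero, one_mul]
    · push_cast
      simp only [hn]
      ring
    · push_cast
      simp only [hn]
      linear_combination htt'

end Cfsg.Agent.H41RV
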