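import Mathlib
import Cfsg.Agent.Lib.H41RVDefs

set_option autoImplicit false

namespace Cfsg.Agent.H41RV

theorem c4a_pow_mod {G : Type*} [Group G] {p : ℕ} (x : G) (hx : x ^ p = 1) (m : ℕ) (hm : m % p = 1) :
    x ^ m = x := by
  conv_lhs => rw [← Nat.div_add_mod m p, hm, pow_add, pow_mul, hx, one_pow, one_mul, pow_one]

theorem c4a_ypow {G : Type*} [Group G] (z a y : G) (hzy : z * y = y * z) (hya : y * a * y⁻¹ = a * z)
    (k : ℕ) : SemiconjBy (y ^ k) a (a * z ^ k) := by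
  have S1 : SemiconjBy y a (a * z) := by
    unfold SemiconjBy
    rw [← hya]
    group
  have S2 : SemiconjBy y z z := hzy.symm
  induction k with
  | zero => simp
  | succ k ih =>
    rw [pow_succ']
    have h := S1.mul_right (S2.pow_right k)
    rw [mul_assoc, ← pow_succ'] at h
    exact h.mul_left ih

/-- **C4a** (40m, pure group computation).  `g₀ u g₀⁻¹` acts on `⟨z,a⟩` like `y^n`, `n = k t²`.
`g₀⁻¹ a g₀ = a^t` (since `g₀ a^t g₀⁻¹ = a^(t t') = a`), `g₀⁻¹ z g₀ = z^t'`.  `u = y^k a^i z^j` acts by `z ↦ z`, `a ↦ a z^k`.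
So `(g₀ u g₀⁻¹) a (g₀ u g₀⁻¹)⁻¹ = g₀ (a z^k)^t g₀⁻¹ = a z^(k t t)` and `(g₀ u g₀⁻¹) z (..)⁻¹ = z`; `y^n a y^(-n) = a z^n`. -/
theorem conj_mem {G : Type*} [Group G] {p : ℕ} [Fact p.Prime] (z a y g₀ : G) (hza : z * a = a * z)
    (hzy : z * y = y * z) (hya : y * a * y⁻¹ = a * z) (hz : z ^ p = 1) (ha : a ^ p = 1)
    (t t' : ℕ) (htt : t * t' % p = 1) (h1 : g₀ * z * g₀⁻¹ = z ^ t) (h2 : g₀ * a * g₀⁻¹ = a ^ t')
    (u : G) (hu : ∃ k i j : ℕ, u = y ^ k * a ^ i * z ^ j) :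
    ∃ n : ℕ, Commute ((y ^ n)⁻¹ * (g₀ * u * g₀⁻¹)) z ∧ Commute ((y ^ n)⁻¹ * (g₀ * u * g₀⁻¹)) a := by
  obtain ⟨k, i, j, rfl⟩ := hu
  have hcaz : Commute a z := hza.symm
  have S2 : SemiconjBy y z z := hzy.symm
  have S3 := c4a_ypow z a y hzy hya
  have S4 : SemiconjBy (y ^ k * a ^ i * z ^ j) a (a * z ^ k) := by
    have e1 : SemiconjBy (z ^ j) a a := (hcaz.symm.pow_left j)
    have e2 : SemiconjBy (a ^ i) a a := ((Commute.refl a).pow_left i)
    exact ((S3 k).mul_left e2).mul_left e1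
  have S5 : SemiconjBy (y ^ k * a ^ i * z ^ j) z z := by
    have e1 : SemiconjBy (z ^ j) z z := ((Commute.refl z).pow_left j)
    have e2 : SemiconjBy (a ^ i) z z := (hcaz.pow_left i)
    have e3 : SemiconjBy (y ^ k) z z := Commute.pow_left S2 k
    exact (e3.mul_left e2).mul_left e1
  have S6z : SemiconjBy g₀ z (z ^ t) := by
    unfold SemiconjBy
    rw [← h1]
    group
  have S6a : SemiconjBy g₀ a (a ^ t') := by
    unfold SemiconjBy
    rw [← h2]
    group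
  have htt' : t' * t % p = 1 := by rw [mul_comm]; exact htt
  have S7 : SemiconjBy g₀ (a ^ t) a := by
    have := S6a.pow_right t
    rwa [← pow_mul, c4a_pow_mod a ha _ htt'] at this
  have S8 : SemiconjBy g₀ (z ^ t') z := by
    have := S6z.pow_right t'
    rwa [← pow_mul, c4a_pow_mod z hz _ htt] at this
  have S9 : SemiconjBy g₀⁻¹ a (a ^ t) := S7.inv_symm_left
  have S10 : SemiconjBy g₀⁻¹ z (z ^ t') := S8.inv_symm_left
  have Sva : SemiconjBy (g₀ * (y ^ k * a ^ i * z ^ j) * g₀⁻¹) a (a * z ^ (k * t * t)) := by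
    have e1 := (S6a.mul_right (S6z.pow_right k)).pow_right t
    have e2 := (e1.mul_left (S4.pow_right t)).mul_left S9
    have e3 : (a ^ t' * (z ^ t) ^ k) ^ t = a * z ^ (k * t * t) := by
      have hc : Commute (a ^ t') ((z ^ t) ^ k) := ((hcaz.pow_pow t' t).pow_right k)
      rw [hc.mul_pow, ← pow_mul, c4a_pow_mod a ha _ htt', ← pow_mul, ← pow_mul]
      congr 2
      ring
    rwa [e3] at e2
  have Svz : SemiconjBy (g₀ * (y ^ k * a ^ i * z ^ j) * g₀⁻¹) z z :=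
    (S8.mul_left (S5.pow_right t')).mul_left S10
  refine ⟨k * t * t, ?_, ?_⟩
  · have e : SemiconjBy (y ^ (k * t * t))⁻¹ z z :=
      (show SemiconjBy (y ^ (k * t * t)) z z from Commute.pow_left S2 _).inv_symm_left
    exact e.mul_left Svz
  · exact (S3 (k * t * t)).inv_symm_left.mul_left Sva

end Cfsg.Agent.H41RV
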