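import Mathlib
import Cfsg.Agent.Lib.H41RVDefs

set_option autoImplicit false

namespace Cfsg.Agent.H41RV

/-- **C4b** (45m, pure Mathlib).  Frattini-type adjustment.
`M₀ := P ⊔ C`; as `P` normalises `C`, every element of `M₀` is `u * c` (`u ∈ P`, `c ∈ C`).  `g₀ P g₀⁻¹ ≤ M₀` by `h`.
`P` and `g₀ P g₀⁻¹` are Sylow `p`-subgroups of `G` contained in `M₀`, hence Sylow in `M₀` (`Sylow.subtype`), hence conjugate in `M₀`:
`m (g₀ P g₀⁻¹) m⁻¹ = P`, `m = u c`.  Then `c g₀` normalises `P` (`u⁻¹ P u = P`). -/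
theorem frattini_adjust {G : Type*} [Group G] [Finite G] {p : ℕ} [Fact p.Prime] (P : Sylow p G)
    (C : Subgroup G) (hPC : ∀ u ∈ (P : Subgroup G), ∀ c ∈ C, u * c * u⁻¹ ∈ C) (g₀ : G)
    (h : ∀ u ∈ (P : Subgroup G), ∃ u' ∈ (P : Subgroup G), u'⁻¹ * (g₀ * u * g₀⁻¹) ∈ C) :
    ∃ c ∈ C, c * g₀ ∈ Subgroup.normalizer ((P : Subgroup G) : Set G) := by
  let M₀ : Subgroup G :=
    { carrier := {x | ∃ u ∈ (P : Subgroup G), ∃ c ∈ C, x = u * c}
      one_mem' := ⟨1, one_mem _, 1, one_mem _, by simp⟩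
      mul_mem' := by
        rintro _ _ ⟨u, hu, c, hc, rfl⟩ ⟨u', hu', c', hc', rfl⟩
        refine ⟨u * u', mul_mem hu hu', (u'⁻¹ * c * u'⁻¹⁻¹) * c',
          mul_mem (hPC _ (inv_mem hu') c hc) hc', by group⟩
      inv_mem' := by
        rintro _ ⟨u, hu, c, hc, rfl⟩
        exact ⟨u⁻¹, inv_mem hu, u * c⁻¹ * u⁻¹, hPC u hu _ (inv_mem hc), by group⟩ }
  have hP : (P : Subgroup G) ≤ M₀ := fun u hu => ⟨u, hu, 1, one_mem _, by simp⟩
  have hP' : ((g₀ • P : Sylow p G) : Subgroup G) ≤ M₀ := by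
    intro x hx
    rw [Sylow.coe_subgroup_smul, Subgroup.mem_pointwise_smul_iff_inv_smul_mem] at hx
    have hx' : g₀⁻¹ * x * g₀ ∈ (P : Subgroup G) := by
      simpa [MulAut.smul_def] using hx
    obtain ⟨u', hu', hc⟩ := h _ hx'
    refine ⟨u', hu', _, hc, ?_⟩
    group
  obtain ⟨m, hm⟩ := MulAction.exists_smul_eq M₀ ((g₀ • P).subtype hP') (P.subtype hP)
  rw [Sylow.smul_subtype] at hm
  have hm' : m • (g₀ • P) = P := Sylow.subtype_injective hm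
  obtain ⟨u, hu, c, hc, hmu⟩ := m.2
  have h1 : ((m : G) * g₀) • P = P := by
    rw [mul_smul]
    exact hm'
  rw [Sylow.smul_eq_iff_mem_normalizer, hmu] at h1
  refine ⟨c, hc, ?_⟩
  have h2 : u ∈ Subgroup.normalizer ((P : Subgroup G) : Set G) := Subgroup.le_normalizer hu
  have h3 := mul_mem (inv_mem h2) h1
  have h4 : u⁻¹ * (u * c * g₀) = c * g₀ := by group
  rwa [h4] at h3

end Cfsg.Agent.H41RV
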