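import Mathlib
import Cfsg.Agent.Lib.H41RVDefs
import Cfsg.Agent.Lib.H41RVC4a
import Cfsg.Agent.Lib.H41RVC4b

set_option autoImplicit false

namespace Cfsg.Agent.H41RV

/-- **C4** (35m).  Move the torus element into `N_G(P)`.
`C := Subgroup.centralizer ({z, a} : Set G)`.  `P` normalises `C`: for `u = y^k a^i z^j ∈ P`, `u⁻¹ z u = z` and `u⁻¹ a u = a z^m` for some `m`
(`m = (p-1) k`-type exponent), both commute with `c ∈ C`.  `conj_mem` gives the hypothesis of `frattini_adjust` (`u' := y^n`).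
`g := c * g₀`: `g z g⁻¹ = c z^t c⁻¹ = z^t`, same for `a`. -/
theorem exists_normalizer_elt {G : Type*} [Group G] [Finite G] {p : ℕ} [Fact p.Prime] (P : Sylow p G)
    (z a y g₀ : G) (hyP : y ∈ (P : Subgroup G)) (hza : z * a = a * z)
    (hzy : z * y = y * z) (hya : y * a * y⁻¹ = a * z) (hz : z ^ p = 1) (ha : a ^ p = 1)
    (hgen : ∀ u ∈ (P : Subgroup G), ∃ k i j : ℕ, u = y ^ k * a ^ i * z ^ j)
    (t t' : ℕ) (htt : t * t' % p = 1) (h1 : g₀ * z * g₀⁻¹ = z ^ t) (h2 : g₀ * a * g₀⁻¹ = a ^ t') :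
    ∃ g ∈ Subgroup.normalizer ((P : Subgroup G) : Set G), g * z * g⁻¹ = z ^ t ∧ g * a * g⁻¹ = a ^ t' := by
  have hcaz : Commute a z := hza.symm
  have S2 : SemiconjBy y z z := hzy.symm
  have S3 := c4a_ypow z a y hzy hya
  have hmemC : ∀ c : G, c ∈ Subgroup.centralizer ({z, a} : Set G) ↔ Commute c z ∧ Commute c a := by
    intro c
    rw [Subgroup.mem_centralizer_iff]
    constructor
    · intro h
      exact ⟨(h z (by simp)).symm, (h a (by simp)).symm⟩
    · rintro ⟨h1, h2⟩ x hx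
      rcases hx with rfl | rfl
      · exact h1.symm
      · exact h2.symm
  have hPC : ∀ u ∈ (P : Subgroup G), ∀ c ∈ Subgroup.centralizer ({z, a} : Set G),
      u * c * u⁻¹ ∈ Subgroup.centralizer ({z, a} : Set G) := by
    intro u hu c hc
    obtain ⟨k, i, j, rfl⟩ := hgen u hu
    obtain ⟨hcz, hca⟩ := (hmemC c).1 hc
    have S4 : SemiconjBy (y ^ k * a ^ i * z ^ j) a (a * z ^ k) := by
      have e1 : SemiconjBy (z ^ j) a a := (hcaz.symm.pow_left j)
      have e2 : SemiconjBy (a ^ i) a a := ((Commute.refl a).pow_left i)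
      exact ((S3 k).mul_left e2).mul_left e1
    have S5 : SemiconjBy (y ^ k * a ^ i * z ^ j) z z := by
      have e1 : SemiconjBy (z ^ j) z z := ((Commute.refl z).pow_left j)
      have e2 : SemiconjBy (a ^ i) z z := (hcaz.pow_left i)
      have e3 : SemiconjBy (y ^ k) z z := Commute.pow_left S2 k
      exact (e3.mul_left e2).mul_left e1
    have S6 : SemiconjBy (y ^ k * a ^ i * z ^ j) (a * (z ^ k)⁻¹) a := by
      have := S4.mul_right (S5.pow_right k).inv_right
      rwa [mul_inv_cancel_right] at this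
    rw [hmemC]
    constructor
    · exact (S5.mul_left (show SemiconjBy c z z from hcz)).mul_left S5.inv_symm_left
    · have hc' : SemiconjBy c (a * (z ^ k)⁻¹) (a * (z ^ k)⁻¹) :=
        Commute.mul_right hca (Commute.inv_right (hcz.pow_right k))
      exact (S6.mul_left hc').mul_left S6.inv_symm_left
  have hh : ∀ u ∈ (P : Subgroup G), ∃ u' ∈ (P : Subgroup G),
      u'⁻¹ * (g₀ * u * g₀⁻¹) ∈ Subgroup.centralizer ({z, a} : Set G) := by
    intro u hu
    obtain ⟨n, hn1, hn2⟩ := conj_mem z a y g₀ hza hzy hya hz ha t t' htt h1 h2 u (hgen u hu)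
    exact ⟨y ^ n, pow_mem hyP n, (hmemC _).2 ⟨hn1, hn2⟩⟩
  obtain ⟨c, hc, hcn⟩ := frattini_adjust P _ hPC g₀ hh
  obtain ⟨hcz, hca⟩ := (hmemC c).1 hc
  refine ⟨c * g₀, hcn, ?_, ?_⟩
  · have : c * g₀ * z * (c * g₀)⁻¹ = c * (g₀ * z * g₀⁻¹) * c⁻¹ := by group
    rw [this, h1, (hcz.pow_right t).eq, mul_inv_cancel_right]
  · have : c * g₀ * a * (c * g₀)⁻¹ = c * (g₀ * a * g₀⁻¹) * c⁻¹ := by group
    rw [this, h2, (hca.pow_right t').eq, mul_inv_cancel_right]

end Cfsg.Agent.H41RV
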