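import Mathlib
import Cfsg.Agent.Lib.H41RVDefs
import Cfsg.Agent.Lib.H41RVB4

set_option autoImplicit false

namespace Cfsg.Agent.H41RV

/-- **C5** (35m).  Translation to matrices.  `α := (P : Subgroup G).normalizerMonoidHom g` satisfies `((α u : ↥P) : G) = g u g⁻¹`
(unfold: `Subgroup.normalizerMonoidHom`, `MulAut.conjNormal`; `rfl`/`simp` should do).  So `α a = a^t'` and
`(q (α a)).toAdd = t' • (q a).toAdd` (`map_pow`, `toAdd_pow`, `Nat.cast_smul_eq_nsmul`), which is `M.mulVec _` by `hM`.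
`det_spec`: `α z = z^(det M).val`, and `α z = z^t`; `z ≠ 1`, `z^p = 1` (`h.exp`) so `orderOf z = p` and `(det M).val ≡ t mod p`
(`pow_eq_pow_iff_modEq`), i.e. `det M = (t : ZMod p)` (`ZMod.natCast_zmod_val`, `ZMod.natCast_eq_natCast_iff`). -/
theorem mat_of_elt {G : Type*} [Group G] [Finite G] {p : ℕ} [Fact p.Prime] (P : Sylow p G)
    (h : ES p ↥(P : Subgroup G)) {q : ↥(P : Subgroup G) →* Multiplicative (V2 p)} (hq : IsCoord q)
    {z₀ : ↥(P : Subgroup G)} (hz₀ : IsZ0 q z₀)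
    (g : ↥(Subgroup.normalizer ((P : Subgroup G) : Set G))) {M : GL (Fin 2) (ZMod p)}
    (hM : Desc q ((P : Subgroup G).normalizerMonoidHom g) M)
    (z a : ↥(P : Subgroup G)) (hz : z ∈ Subgroup.center ↥(P : Subgroup G)) (hz1 : z ≠ 1) (t t' : ℕ)
    (h1 : (g : G) * (z : G) * (g : G)⁻¹ = (z : G) ^ t) (h2 : (g : G) * (a : G) * (g : G)⁻¹ = (a : G) ^ t') :
    (M : Matrix (Fin 2) (Fin 2) (ZMod p)).mulVec (q a).toAdd = (t' : ZMod p) • (q a).toAdd ∧
      (M : Matrix (Fin 2) (Fin 2) (ZMod p)).det = (t : ZMod p) := by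
  have hα : ∀ u : ↥(P : Subgroup G),
      (((P : Subgroup G).normalizerMonoidHom g u : ↥(P : Subgroup G)) : G) = (g : G) * u * (g : G)⁻¹ := by
    intro u
    rfl
  constructor
  · have e : (P : Subgroup G).normalizerMonoidHom g a = a ^ t' := by
      apply Subtype.ext
      rw [hα, h2]
      rfl
    rw [← hM a, e, map_pow, toAdd_pow, Nat.cast_smul_eq_nsmul]
  · have e : (P : Subgroup G).normalizerMonoidHom g z = z ^ t := by
      apply Subtype.ext
      rw [hα, h1]
      rfl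
    have h3 := det_spec h hq hz₀ hM z hz
    rw [e] at h3
    have ho : orderOf z = p := orderOf_eq_prime (h.exp z) hz1
    rw [pow_eq_pow_iff_modEq, ho] at h3
    have h4 := (ZMod.natCast_eq_natCast_iff _ _ _).2 h3
    rw [ZMod.natCast_zmod_val] at h4
    exact h4.symm

end Cfsg.Agent.H41RV
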