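import Mathlib
import Cfsg.Agent.Lib.H41RVDefs
import Cfsg.Agent.Lib.Helper41Dk19

/-! # Project RV, vocabulary of stage 3 (`SL₂(E)`-level). -/

set_option autoImplicit false

namespace Cfsg.Agent.H41RV

open Matrix Cfsg.Agent.Lib.Helper46SL2 Cfsg.Agent.Lib.Helper41SL2 Cfsg.Agent.Lib.Helper41Dk

local notation "SL2" => Matrix.SpecialLinearGroup (Fin 2)

/-- determinant of two vectors -/
def dE {E : Type*} [CommRing E] (u v : Fin 2 → E) : E := u 0 * v 1 - u 1 * v 0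

/-- `w` is an eigenvector of `x` with eigenvalue `e` -/
def Eig {E : Type*} [Field E] (x : SL2 E) (w : Fin 2 → E) (e : E) : Prop :=
  w ≠ 0 ∧ (x : Matrix (Fin 2) (Fin 2) E).mulVec w = e • w

/-- the three polyhedral outcomes of `OutA` -/
def Poly {E : Type*} [Field E] (G : Subgroup (SL2 E)) : Prop :=
  (Nat.card G = ee E * 12 ∧ NoCentral G) ∨
    (Nat.card G = ee E * 24 ∧ NoCentral G ∧ ∃ x ∈ G, x ∉ Subgroup.center (SL2 E) ∧
      Nat.card (AA G x) = ee E * 3 ∧ Nat.card (NN G x) = ee E * 6) ∨ O60 G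

end Cfsg.Agent.H41RV
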