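import Mathlib
import Cfsg.Agent.Lib.H41RVDefs2

set_option autoImplicit false

namespace Cfsg.Agent.H41RV

open Matrix Cfsg.Agent.Lib.Helper46SL2 Cfsg.Agent.Lib.Helper41SL2 Cfsg.Agent.Lib.Helper41Dk

local notation "SL2" => Matrix.SpecialLinearGroup (Fin 2)

/-- **E1**.  Three pairwise independent eigenvectors force a scalar matrix. -/
theorem central_of_three {E : Type*} [Field E] (x : SL2 E) {w₁ w₂ w₃ : Fin 2 → E} {e₁ e₂ e₃ : E}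
    (h₁ : Eig x w₁ e₁) (h₂ : Eig x w₂ e₂) (h₃ : Eig x w₃ e₃) (d12 : dE w₁ w₂ ≠ 0) (d13 : dE w₁ w₃ ≠ 0)
    (d23 : dE w₂ w₃ ≠ 0) : x ∈ Subgroup.center (SL2 E) := by
  rw [Cfsg.Agent.Lib.Helper46SL2.mem_center_iff]
  obtain ⟨-, h₁⟩ := h₁
  obtain ⟨-, h₂⟩ := h₂
  obtain ⟨-, h₃⟩ := h₃
  have a1 := congrFun h₁ 0
  have b1 := congrFun h₁ 1
  have a2 := congrFun h₂ 0
  have b2 := congrFun h₂ 1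
  have a3 := congrFun h₃ 0
  have b3 := congrFun h₃ 1
  simp only [Matrix.mulVec, dotProduct, Fin.sum_univ_two, Pi.smul_apply, smul_eq_mul] at a1 b1 a2 b2 a3 b3
  unfold dE at d12 d13 d23
  set a := (x : Matrix (Fin 2) (Fin 2) E) 0 0
  set b := (x : Matrix (Fin 2) (Fin 2) E) 0 1
  set c := (x : Matrix (Fin 2) (Fin 2) E) 1 0
  set d := (x : Matrix (Fin 2) (Fin 2) E) 1 1
  -- the quadratic form q(w) = c w0^2 + (d - a) w0 w1 - b w1^2 vanishes on eigenvectors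
  have q1 : c * w₁ 0 ^ 2 + (d - a) * (w₁ 0 * w₁ 1) - b * w₁ 1 ^ 2 = 0 := by
    linear_combination (w₁ 0) * b1 - (w₁ 1) * a1
  have q2 : c * w₂ 0 ^ 2 + (d - a) * (w₂ 0 * w₂ 1) - b * w₂ 1 ^ 2 = 0 := by
    linear_combination (w₂ 0) * b2 - (w₂ 1) * a2
  have q3 : c * w₃ 0 ^ 2 + (d - a) * (w₃ 0 * w₃ 1) - b * w₃ 1 ^ 2 = 0 := by
    linear_combination (w₃ 0) * b3 - (w₃ 1) * a3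
  -- Vandermonde-type determinant
  have hD : (w₁ 0 * w₂ 1 - w₁ 1 * w₂ 0) * (w₁ 0 * w₃ 1 - w₁ 1 * w₃ 0) * (w₂ 0 * w₃ 1 - w₂ 1 * w₃ 0) ≠ 0 :=
    mul_ne_zero (mul_ne_zero d12 d13) d23
  have hc : c * ((w₁ 0 * w₂ 1 - w₁ 1 * w₂ 0) * (w₁ 0 * w₃ 1 - w₁ 1 * w₃ 0) * (w₂ 0 * w₃ 1 - w₂ 1 * w₃ 0)) = 0 := by
    linear_combination (w₂ 0 * w₂ 1 * w₃ 1 ^ 2 - w₃ 0 * w₃ 1 * w₂ 1 ^ 2) * q1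
      - (w₁ 0 * w₁ 1 * w₃ 1 ^ 2 - w₃ 0 * w₃ 1 * w₁ 1 ^ 2) * q2
      + (w₁ 0 * w₁ 1 * w₂ 1 ^ 2 - w₂ 0 * w₂ 1 * w₁ 1 ^ 2) * q3
  have hb : b * ((w₁ 0 * w₂ 1 - w₁ 1 * w₂ 0) * (w₁ 0 * w₃ 1 - w₁ 1 * w₃ 0) * (w₂ 0 * w₃ 1 - w₂ 1 * w₃ 0)) = 0 := by
    linear_combination (-(w₂ 0 ^ 2 * (w₃ 0 * w₃ 1) - w₃ 0 ^ 2 * (w₂ 0 * w₂ 1))) * q1
      + (w₁ 0 ^ 2 * (w₃ 0 * w₃ 1) - w₃ 0 ^ 2 * (w₁ 0 * w₁ 1)) * q2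
      - (w₁ 0 ^ 2 * (w₂ 0 * w₂ 1) - w₂ 0 ^ 2 * (w₁ 0 * w₁ 1)) * q3
  have hda : (d - a) * ((w₁ 0 * w₂ 1 - w₁ 1 * w₂ 0) * (w₁ 0 * w₃ 1 - w₁ 1 * w₃ 0) * (w₂ 0 * w₃ 1 - w₂ 1 * w₃ 0)) = 0 := by
    linear_combination (-(w₂ 0 ^ 2 * w₃ 1 ^ 2 - w₃ 0 ^ 2 * w₂ 1 ^ 2)) * q1
      + (w₁ 0 ^ 2 * w₃ 1 ^ 2 - w₃ 0 ^ 2 * w₁ 1 ^ 2) * q2
      - (w₁ 0 ^ 2 * w₂ 1 ^ 2 - w₂ 0 ^ 2 * w₁ 1 ^ 2) * q3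
  refine ⟨(mul_eq_zero.1 hb).resolve_right hD, (mul_eq_zero.1 hc).resolve_right hD, ?_⟩
  have := (mul_eq_zero.1 hda).resolve_right hD
  exact (sub_eq_zero.1 this).symm

end Cfsg.Agent.H41RV
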