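import Mathlib
import Cfsg.Agent.Lib.H41RVDefs2

set_option autoImplicit false

namespace Cfsg.Agent.H41RV

open Matrix Cfsg.Agent.Lib.Helper46SL2 Cfsg.Agent.Lib.Helper41SL2 Cfsg.Agent.Lib.Helper41Dk

local notation "SL2" => Matrix.SpecialLinearGroup (Fin 2)

/-- **E2** (2x2 linear algebra).  A matrix commuting with `g` preserves the eigenline of `g` for an
eigenvalue `e` with `e² ≠ 1`. -/
theorem eig_of_commute {E : Type*} [Field E] {g x : SL2 E} (hc : Commute x g) {w : Fin 2 → E} {e : E}
    (hg : Eig g w e) (he : e ^ 2 ≠ 1) : ∃ e' : E, Eig x w e' := by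
  obtain ⟨hw, hgw⟩ := hg
  have h0 : g 0 0 * w 0 + g 0 1 * w 1 = e * w 0 := by
    have := congrFun hgw 0
    simpa [Matrix.mulVec, dotProduct, Fin.sum_univ_two] using this
  have h1 : g 1 0 * w 0 + g 1 1 * w 1 = e * w 1 := by
    have := congrFun hgw 1
    simpa [Matrix.mulVec, dotProduct, Fin.sum_univ_two] using this
  have hc' : x * g = g * x := hc
  have c00 := congrArg (fun A : SL2 E => A 0 0) hc'
  have c01 := congrArg (fun A : SL2 E => A 0 1) hc'
  have c10 := congrArg (fun A : SL2 E => A 1 0) hc'
  have c11 := congrArg (fun A : SL2 E => A 1 1) hc'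
  simp only [mul_00, mul_01, mul_10, mul_11] at c00 c01 c10 c11
  obtain ⟨u0, hu0⟩ : ∃ u0, u0 = x 0 0 * w 0 + x 0 1 * w 1 := ⟨_, rfl⟩
  obtain ⟨u1, hu1⟩ : ∃ u1, u1 = x 1 0 * w 0 + x 1 1 * w 1 := ⟨_, rfl⟩
  have g0 : g 0 0 * u0 + g 0 1 * u1 = e * u0 := by
    rw [hu0, hu1]
    linear_combination (-c00) * w 0 + (-c01) * w 1 + x 0 0 * h0 + x 0 1 * h1
  have g1 : g 1 0 * u0 + g 1 1 * u1 = e * u1 := by
    rw [hu0, hu1]
    linear_combination (-c10) * w 0 + (-c11) * w 1 + x 1 0 * h0 + x 1 1 * h1
  have hmv : (x : Matrix (Fin 2) (Fin 2) E).mulVec w = ![u0, u1] := by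
    funext i
    fin_cases i
    · simp [Matrix.mulVec, dotProduct, Fin.sum_univ_two, hu0]
    · simp [Matrix.mulVec, dotProduct, Fin.sum_univ_two, hu1]
  by_cases hD : w 0 * u1 - w 1 * u0 = 0
  · by_cases hw0 : w 0 = 0
    · have hw1 : w 1 ≠ 0 := by
        intro hw1
        apply hw
        funext i
        fin_cases i
        · exact hw0
        · exact hw1
      refine ⟨u1 / w 1, hw, ?_⟩
      rw [hmv]
      funext i
      fin_cases i
      · simp only [Pi.smul_apply, smul_eq_mul]
        show u0 = u1 / w 1 * w 0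
        field_simp
        linear_combination -hD
      · simp only [Pi.smul_apply, smul_eq_mul]
        show u1 = u1 / w 1 * w 1
        field_simp
    · refine ⟨u0 / w 0, hw, ?_⟩
      rw [hmv]
      funext i
      fin_cases i
      · simp only [Pi.smul_apply, smul_eq_mul]
        show u0 = u0 / w 0 * w 0
        field_simp
      · simp only [Pi.smul_apply, smul_eq_mul]
        show u1 = u0 / w 0 * w 1
        field_simp
        linear_combination hD
  · exfalso
    apply he
    have e00 : g 0 0 = e := by
      have : (g 0 0 - e) * (w 0 * u1 - w 1 * u0) = 0 := by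
        linear_combination u1 * h0 - w 1 * g0
      rcases mul_eq_zero.mp this with h | h
      · linear_combination h
      · exact absurd h hD
    have e01 : g 0 1 = 0 := by
      have : g 0 1 * (w 0 * u1 - w 1 * u0) = 0 := by
        linear_combination w 0 * g0 - u0 * h0
      rcases mul_eq_zero.mp this with h | h
      · exact h
      · exact absurd h hD
    have e11 : g 1 1 = e := by
      have : (g 1 1 - e) * (w 0 * u1 - w 1 * u0) = 0 := by
        linear_combination w 0 * g1 - u0 * h1
      rcases mul_eq_zero.mp this with h | h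
      · linear_combination h
      · exact absurd h hD
    have hd := det2 g
    rw [e00, e01, e11] at hd
    linear_combination hd

end Cfsg.Agent.H41RV
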