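import Mathlib
import Cfsg.Agent.Lib.H41RVDefs2
import Cfsg.Agent.Lib.Helper41SL2Norm

set_option autoImplicit false

namespace Cfsg.Agent.H41RV

open Matrix Cfsg.Agent.Lib.Helper46SL2 Cfsg.Agent.Lib.Helper41SL2 Cfsg.Agent.Lib.Helper41Dk

local notation "SL2" => Matrix.SpecialLinearGroup (Fin 2)

/-- **E3** (25m).  Squares of elements of `NN G x` commute with `x`.
`x ∉ center` (central elements are `±1`, `tr² = 4`: `mem_center_iff_eq`).  `(mem_NN ct_SL2 hx).mp hg` gives `Commute (g x g⁻¹) x`; `tr (g x g⁻¹) = tr x` (`tr_conj`), so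
`Helper41SL2.eq_or_eq_inv_of_commute ht _ _` (file Helper41SL2Norm) gives `g x g⁻¹ = x` or `x⁻¹`.  In both cases `g g x g⁻¹ g⁻¹ = x`. -/
theorem sq_commute_of_NN {E : Type*} [Field E] {G : Subgroup (SL2 E)} {x g : SL2 E} (ht : tr x ^ 2 ≠ 4)
    (hg : g ∈ NN G x) : Commute (g * g) x := by
  have hx : x ∉ Subgroup.center (SL2 E) := not_mem_center_of_tr ht
  have hc := ((mem_NN ct_SL2 hx).mp hg).1
  rcases eq_or_eq_inv_of_commute ht hc.eq (tr_conj x g) with h | h
  · have h1 : g * x = x * g := mul_inv_eq_iff_eq_mul.mp h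
    show g * g * x = x * (g * g)
    rw [mul_assoc, h1, ← mul_assoc, h1, mul_assoc]
  · have h1 : g * x = x⁻¹ * g := mul_inv_eq_iff_eq_mul.mp h
    have h2 : g * x⁻¹ = x * g := by
      have h3 : x * g * x = g := by rw [mul_assoc, h1, mul_inv_cancel_left]
      exact (eq_mul_inv_iff_mul_eq.mpr h3).symm
    show g * g * x = x * (g * g)
    rw [mul_assoc, h1, ← mul_assoc, h2, mul_assoc]

end Cfsg.Agent.H41RV
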