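import Mathlib
import Cfsg.Agent.Lib.H41RVDefs2

set_option autoImplicit false

namespace Cfsg.Agent.H41RV

open Matrix Cfsg.Agent.Lib.Helper46SL2 Cfsg.Agent.Lib.Helper41SL2 Cfsg.Agent.Lib.Helper41Dk

local notation "SL2" => Matrix.SpecialLinearGroup (Fin 2)

/-- **E4a** (25m).  Binary tetrahedral case.  `hpre : pre (G.map (proj E)) = G := pre_map_proj hZ`; `A4_outcome (H := G.map (proj E)) (by rw [hpre]; exact h) (by rw [hpre]; exact hnc)` gives
`e : G.map (proj E) ≃* alternatingGroup (Fin 4)`; `A4_exponent` (Helper41Dk19) applied to `e ⟨proj E z, _⟩` gives `(proj E z)^2 = 1` or `^3 = 1`, i.e. `z^n ∈ ker (proj E) = center`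
(`proj E = QuotientGroup.mk' (center)`, `QuotientGroup.eq_one_iff`).  See the proof of `A4_traces` in Helper41Dk19 for the same steps. -/
theorem pow_mem_center_12 {E : Type*} [Field E] [Finite E] {G : Subgroup (SL2 E)}
    (hZ : Subgroup.center (SL2 E) ≤ G) (h : Nat.card G = ee E * 12) (hnc : NoCentral G) {z : SL2 E}
    (hz : z ∈ G) : z ^ 2 ∈ Subgroup.center (SL2 E) ∨ z ^ 3 ∈ Subgroup.center (SL2 E) := by
  have hpre : pre (G.map (proj E)) = G := pre_map_proj hZ
  obtain ⟨e⟩ := A4_outcome (H := G.map (proj E)) (by rw [hpre]; exact h) (by rw [hpre]; exact hnc)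
  let zb : G.map (proj E) := ⟨proj E z, z, hz, rfl⟩
  have key : ∀ n : ℕ, e zb ^ n = 1 → z ^ n ∈ Subgroup.center (SL2 E) := by
    intro n hn
    rw [← map_pow] at hn
    have h1 : zb ^ n = 1 := e.injective (by rw [hn, map_one])
    have h2 : proj E z ^ n = 1 := congrArg Subtype.val h1
    rw [← map_pow] at h2
    exact (QuotientGroup.eq_one_iff _).mp h2
  rcases A4_exponent (e zb) with h1 | h1
  · exact Or.inl (key 2 h1)
  · exact Or.inr (key 3 h1)

end Cfsg.Agent.H41RV
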