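import Mathlib
import Cfsg.Agent.Lib.H41RVDefs2

set_option autoImplicit false

namespace Cfsg.Agent.H41RV

open Matrix Cfsg.Agent.Lib.Helper46SL2 Cfsg.Agent.Lib.Helper41SL2 Cfsg.Agent.Lib.Helper41Dk

local notation "SL2" => Matrix.SpecialLinearGroup (Fin 2)

/-- **E4b** (20m).  Binary octahedral case: the isomorphism.  `hpre : pre (G.map (proj E)) = G := pre_map_proj hZ`, then `S4_outcome` (Helper41Dk13) with `H := G.map (proj E)` after rewriting with `hpre`. -/
theorem iso_24 {E : Type*} [Field E] [Finite E] {G : Subgroup (SL2 E)}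
    (hZ : Subgroup.center (SL2 E) ≤ G) (h : Nat.card G = ee E * 24) (hnc : NoCentral G) {x : SL2 E}
    (hxZ : x ∉ Subgroup.center (SL2 E)) (hA : Nat.card (AA G x) = ee E * 3)
    (hN : Nat.card (NN G x) = ee E * 6) : Nonempty (↥(G.map (proj E)) ≃* Equiv.Perm (Fin 4)) := by
  have hpre : pre (G.map (proj E)) = G := pre_map_proj hZ
  exact S4_outcome (H := G.map (proj E)) (by rw [hpre]; exact h) (by rw [hpre]; exact hnc) hxZ
    (by rw [hpre]; exact hA) (by rw [hpre]; exact hN)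

set_option maxRecDepth 100000 in
theorem S4_exponent_aux : ∀ σ : Equiv.Perm (Fin 4), σ ^ 2 = 1 ∨ σ ^ 3 = 1 ∨ σ ^ 4 = 1 := by
  decide

/-- (20m) consequence: `∀ σ : Perm (Fin 4), σ^2 = 1 ∨ σ^3 = 1 ∨ σ^4 = 1` by `decide`; transport as in E4a. -/
theorem pow_mem_center_24 {E : Type*} [Field E] [Finite E] {G : Subgroup (SL2 E)}
    (e : ↥(G.map (proj E)) ≃* Equiv.Perm (Fin 4)) {z : SL2 E} (hz : z ∈ G) :
    z ^ 2 ∈ Subgroup.center (SL2 E) ∨ z ^ 3 ∈ Subgroup.center (SL2 E) ∨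
      z ^ 4 ∈ Subgroup.center (SL2 E) := by
  let zb : G.map (proj E) := ⟨proj E z, z, hz, rfl⟩
  have key : ∀ n : ℕ, e zb ^ n = 1 → z ^ n ∈ Subgroup.center (SL2 E) := by
    intro n hn
    rw [← map_pow] at hn
    have h1 : zb ^ n = 1 := e.injective (by rw [hn, map_one])
    have h2 : proj E z ^ n = 1 := congrArg Subtype.val h1
    rw [← map_pow] at h2
    exact (QuotientGroup.eq_one_iff _).mp h2
  rcases S4_exponent_aux (e zb) with h1 | h1 | h1
  · exact Or.inl (key 2 h1)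
  · exact Or.inr (Or.inl (key 3 h1))
  · exact Or.inr (Or.inr (key 4 h1))

end Cfsg.Agent.H41RV
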