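import Mathlib
import Cfsg.Agent.Lib.H41RVDefs2

set_option autoImplicit false

namespace Cfsg.Agent.H41RV

open Matrix Cfsg.Agent.Lib.Helper46SL2 Cfsg.Agent.Lib.Helper41SL2 Cfsg.Agent.Lib.Helper41Dk

local notation "SL2" => Matrix.SpecialLinearGroup (Fin 2)

/-- **E4c** (30m).  Binary icosahedral case.  If `z` is central, `z^2` is central.  Otherwise unfold `O60`: `Rel G xₙ z` for `n = 2, 3, 5`, i.e. `g⁻¹ z g ∈ AA G xₙ`, a group of order `ee E * n = 2 n`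
(`ee_eq_two (odd_card_of_two_ne_zero h2)`), so `(g⁻¹ z g)^(2n) = 1`, `((g⁻¹ z g)^n)² = 1`, `(g⁻¹ z g)^n = ± 1` central (`sq_eq_one_iff' h2`, exactly as in `cheb_of_card_AA`, Helper41Dk19), and
`z^n = g (g⁻¹ z g)^n g⁻¹` is central. -/
theorem pow_mem_center_60 {E : Type*} [Field E] [Fintype E] (h2 : (2 : E) ≠ 0) {G : Subgroup (SL2 E)}
    (h : O60 G) {z : SL2 E} (hz : z ∈ G) :
    z ^ 2 ∈ Subgroup.center (SL2 E) ∨ z ^ 3 ∈ Subgroup.center (SL2 E) ∨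
      z ^ 5 ∈ Subgroup.center (SL2 E) := by
  classical
  have hee : ee E = 2 := ee_eq_two (odd_card_of_two_ne_zero h2)
  have key : ∀ (x : SL2 E) (n : ℕ), Nat.card (AA G x) = ee E * n → Rel G x z →
      z ^ n ∈ Subgroup.center (SL2 E) := by
    intro x n hcard hrel
    obtain ⟨g, hg, hc⟩ := hrel
    have hw : g⁻¹ * z * g ∈ AA G x :=
      ⟨mem_cent_iff.mpr hc, G.mul_mem (G.mul_mem (G.inv_mem hg) hz) hg⟩
    have h1 : (⟨g⁻¹ * z * g, hw⟩ : AA G x) ^ Nat.card (AA G x) = 1 := pow_card_eq_one'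
    have h3 : (g⁻¹ * z * g) ^ (2 * n) = 1 := by
      have hc2 : Nat.card (AA G x) = 2 * n := by rw [hcard, hee]
      rw [← hc2]; exact congrArg Subtype.val h1
    have h4 : (g⁻¹ * z * g) ^ n * (g⁻¹ * z * g) ^ n = 1 := by rw [← pow_add, ← two_mul, h3]
    have h5 : (g⁻¹ * z * g) ^ n ∈ Subgroup.center (SL2 E) :=
      mem_center_iff_eq.mpr ((sq_eq_one_iff' h2).mp h4)
    have h6 : z ^ n = g * (g⁻¹ * z * g) ^ n * g⁻¹ := by
      have : g⁻¹ * z * g = g⁻¹ * z * g⁻¹⁻¹ := by rw [inv_inv]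
      rw [this, conj_pow]
      group
    rw [h6]
    have h7 := (Subgroup.mem_center_iff.mp h5) g
    rw [h7, mul_assoc, mul_inv_cancel, mul_one]
    exact h5
  by_cases hzZ : z ∈ Subgroup.center (SL2 E)
  · exact Or.inl (Subgroup.pow_mem _ hzZ 2)
  obtain ⟨-, x2, x3, x5, ⟨-, -, c2, -⟩, ⟨-, -, c3, -⟩, ⟨-, -, c5, -⟩, hcov⟩ := h
  rcases hcov z hz hzZ with h' | h' | h'
  · exact Or.inl (key x2 2 c2 h')
  · exact Or.inr (Or.inl (key x3 3 c3 h'))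
  · exact Or.inr (Or.inr (key x5 5 c5 h'))

end Cfsg.Agent.H41RV
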