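import Mathlib
import Cfsg.Agent.Lib.H41RVDefs2

set_option autoImplicit false

namespace Cfsg.Agent.H41RV

open Matrix Cfsg.Agent.Lib.Helper46SL2 Cfsg.Agent.Lib.Helper41SL2 Cfsg.Agent.Lib.Helper41Dk

local notation "SL2" => Matrix.SpecialLinearGroup (Fin 2)

theorem Eig.mul' {E : Type*} [Field E] {x y : SL2 E} {w : Fin 2 → E} {e f : E} (h : Eig x w e)
    (h' : Eig y w f) : Eig (x * y) w (e * f) := by
  refine ⟨h.1, ?_⟩
  rw [Matrix.SpecialLinearGroup.coe_mul, ← Matrix.mulVec_mulVec, h'.2, Matrix.mulVec_smul, h.2,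
    smul_smul, mul_comm]

theorem Eig.pow' {E : Type*} [Field E] {x : SL2 E} {w : Fin 2 → E} {e : E} (h : Eig x w e) (n : ℕ) :
    Eig (x ^ n) w (e ^ n) := by
  induction n with
  | zero =>
    refine ⟨h.1, ?_⟩
    simp
  | succ n ih =>
    rw [pow_succ, pow_succ]
    exact ih.mul' h

/-- **E6** (25m).  By induction `Eig (x^n) w (e^n)` (`Matrix.mulVec_mulVec`, `SpecialLinearGroup.coe_mul`/`coe_pow`).  `x^n = 1` or `-1` (`mem_center_iff_eq`), so `e^n • w = ± w` and `w ≠ 0` gives
`e^n = ± 1`, `e^(2n) = 1`. -/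
theorem pow_eig {E : Type*} [Field E] {x : SL2 E} {w : Fin 2 → E} {e : E} (h : Eig x w e) {n : ℕ}
    (hn : x ^ n ∈ Subgroup.center (SL2 E)) : e ^ (2 * n) = 1 := by
  have h1 := h.pow' n
  have hw := h.1
  have key : e ^ n = 1 ∨ e ^ n = -1 := by
    rcases mem_center_iff_eq.mp hn with h2 | h2
    · left
      have h3 := h1.2
      rw [h2] at h3
      simp only [Matrix.SpecialLinearGroup.coe_one, Matrix.one_mulVec] at h3
      have h4 : (e ^ n - 1) • w = 0 := by
        rw [sub_smul, one_smul, ← h3, sub_self]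
      rcases smul_eq_zero.mp h4 with h5 | h5
      · exact sub_eq_zero.mp h5
      · exact absurd h5 hw
    · right
      have h3 := h1.2
      rw [h2] at h3
      simp only [Matrix.SpecialLinearGroup.coe_neg, Matrix.SpecialLinearGroup.coe_one,
        Matrix.neg_mulVec, Matrix.one_mulVec] at h3
      have h4 : (e ^ n + 1) • w = 0 := by
        rw [add_smul, one_smul, ← h3, neg_add_cancel]
      rcases smul_eq_zero.mp h4 with h5 | h5
      · exact eq_neg_of_add_eq_zero_left h5
      · exact absurd h5 hw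
  rw [mul_comm, pow_mul]
  rcases key with h2 | h2 <;> rw [h2] <;> simp

/-- (5m) the square. -/
theorem Eig.sq {E : Type*} [Field E] {x : SL2 E} {w : Fin 2 → E} {e : E} (h : Eig x w e) :
    Eig (x * x) w (e * e) := h.mul' h

end Cfsg.Agent.H41RV
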