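import Mathlib
import Cfsg.Agent.Lib.H41RVDefs2
import Cfsg.Agent.Lib.H41RVE1
import Cfsg.Agent.Lib.H41RVE2
import Cfsg.Agent.Lib.H41RVE3
import Cfsg.Agent.Lib.H41RVE6
import Cfsg.Agent.Lib.H41RVE4a
import Cfsg.Agent.Lib.H41RVE4b
import Cfsg.Agent.Lib.H41RVE4c

set_option autoImplicit false

namespace Cfsg.Agent.H41RV

open Matrix Cfsg.Agent.Lib.Helper46SL2 Cfsg.Agent.Lib.Helper41SL2 Cfsg.Agent.Lib.Helper41Dk

local notation "SL2" => Matrix.SpecialLinearGroup (Fin 2)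

theorem tr_sq_of_central {E : Type*} [Field E] {x : SL2 E} (h : x ∈ Subgroup.center (SL2 E)) :
    tr x ^ 2 = 4 := by
  rcases mem_center_iff_eq.mp h with rfl | rfl
  · simp [tr]; norm_num
  · simp [tr]; norm_num

theorem core_aux {E : Type*} [Field E] {x x₁ x₂ x₃ : SL2 E} (ht : tr x ^ 2 ≠ 4)
    (c₁ : Commute (x₁ * x₁) x) (c₂ : Commute (x₂ * x₂) x) (c₃ : Commute (x₃ * x₃) x)
    {w₁ w₂ w₃ : Fin 2 → E} {e₁ e₂ e₃ : E}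
    (h₁ : Eig x₁ w₁ e₁) (h₂ : Eig x₂ w₂ e₂) (h₃ : Eig x₃ w₃ e₃) (d12 : dE w₁ w₂ ≠ 0) (d13 : dE w₁ w₃ ≠ 0)
    (d23 : dE w₂ w₃ ≠ 0) : e₁ ^ 4 = 1 ∨ e₂ ^ 4 = 1 ∨ e₃ ^ 4 = 1 := by
  by_contra hcon
  push Not at hcon
  obtain ⟨n₁, n₂, n₃⟩ := hcon
  have k : ∀ e : E, e ^ 4 ≠ 1 → (e * e) ^ 2 ≠ 1 := fun e he h => he (by rw [← h]; ring)
  obtain ⟨f₁, g₁⟩ := eig_of_commute c₁.symm h₁.sq (k _ n₁)
  obtain ⟨f₂, g₂⟩ := eig_of_commute c₂.symm h₂.sq (k _ n₂)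
  obtain ⟨f₃, g₃⟩ := eig_of_commute c₃.symm h₃.sq (k _ n₃)
  exact ht (tr_sq_of_central (central_of_three x g₁ g₂ g₃ d12 d13 d23))

/-- the dichotomy -/
theorem core3 {E : Type*} [Field E] [Finite E] {G : Subgroup (SL2 E)}
    (hZ : Subgroup.center (SL2 E) ≤ G)
    (hss : ∀ x ∈ G, x ∉ Subgroup.center (SL2 E) → tr x ^ 2 ≠ 4) {x₁ x₂ x₃ : SL2 E}
    (hx₁ : x₁ ∈ G) (hx₂ : x₂ ∈ G) (hx₃ : x₃ ∈ G)
    {w₁ w₂ w₃ : Fin 2 → E} {e₁ e₂ e₃ : E}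
    (h₁ : Eig x₁ w₁ e₁) (h₂ : Eig x₂ w₂ e₂) (h₃ : Eig x₃ w₃ e₃) (d12 : dE w₁ w₂ ≠ 0) (d13 : dE w₁ w₃ ≠ 0)
    (d23 : dE w₂ w₃ ≠ 0) : (e₁ ^ 4 = 1 ∨ e₂ ^ 4 = 1 ∨ e₃ ^ 4 = 1) ∨ Poly G := by
  rcases caseA hZ hss with h | ⟨x, hx, ht, hG⟩ | ⟨x, hx, ht, hG, -⟩ | h | h | h
  · left; left
    have h5 : x₁ ^ 1 ∈ Subgroup.center (SL2 E) := by rw [pow_one, ← h]; exact hx₁
    have := pow_eig h₁ h5
    calc e₁ ^ 4 = (e₁ ^ (2 * 1)) ^ 2 := by ring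
      _ = 1 := by rw [this]; ring
  · left
    have c : ∀ y ∈ G, Commute (y * y) x := by
      intro y hy
      rw [hG] at hy
      have := (mem_AA.mp hy).1
      exact this.mul_left this
    exact core_aux ht (c _ hx₁) (c _ hx₂) (c _ hx₃) h₁ h₂ h₃ d12 d13 d23
  · left
    have c : ∀ y ∈ G, Commute (y * y) x := by
      intro y hy
      rw [hG] at hy
      exact sq_commute_of_NN ht hy
    exact core_aux ht (c _ hx₁) (c _ hx₂) (c _ hx₃) h₁ h₂ h₃ d12 d13 d23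
  · exact Or.inr (Or.inl h)
  · exact Or.inr (Or.inr (Or.inl h))
  · exact Or.inr (Or.inr (Or.inr h))

/-- in the polyhedral cases an eigenvalue satisfies `e^(2n) = 1`, `n ≤ 5`. -/
theorem poly_eig {E : Type*} [Field E] [Fintype E] (h2 : (2 : E) ≠ 0) {G : Subgroup (SL2 E)}
    (hZ : Subgroup.center (SL2 E) ≤ G) (hP : Poly G) {x : SL2 E} (hx : x ∈ G) {w : Fin 2 → E} {e : E}
    (h : Eig x w e) : e ^ 4 = 1 ∨ e ^ 6 = 1 ∨ e ^ 8 = 1 ∨ e ^ 10 = 1 := by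
  rcases hP with ⟨h12, hnc⟩ | ⟨h24, hnc, y, -, hyZ, hA, hN⟩ | h60
  · rcases pow_mem_center_12 hZ h12 hnc hx with k | k
    · exact Or.inl (pow_eig h k)
    · exact Or.inr (Or.inl (pow_eig h k))
  · obtain ⟨e'⟩ := iso_24 hZ h24 hnc hyZ hA hN
    rcases pow_mem_center_24 e' hx with k | k | k
    · exact Or.inl (pow_eig h k)
    · exact Or.inr (Or.inl (pow_eig h k))
    · exact Or.inr (Or.inr (Or.inl (pow_eig h k)))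
  · rcases pow_mem_center_60 h2 h60 hx with k | k | k
    · exact Or.inl (pow_eig h k)
    · exact Or.inr (Or.inl (pow_eig h k))
    · exact Or.inr (Or.inr (Or.inr (pow_eig h k)))

end Cfsg.Agent.H41RV
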