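import Mathlib
import Cfsg.Agent.Lib.H41RVDefs
import Cfsg.Agent.Lib.Helper41Dk6
import Cfsg.Agent.Lib.Helper41SL2Unip2

set_option autoImplicit false

namespace Cfsg.Agent.H41RV

open Matrix Cfsg.Agent.Lib.Helper46SL2 Cfsg.Agent.Lib.Helper41SL2 Cfsg.Agent.Lib.Helper41Dk

local notation "SL2" => Matrix.SpecialLinearGroup (Fin 2)

/-- the scaled preimage, as a submonoid -/
def GtMon {p : ℕ} {E : Type*} [Field E] (ι : ZMod p →+* E)
    (Γ : Subgroup (GL (Fin 2) (ZMod p))) : Submonoid (SL2 E) where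
  carrier := {x | ∃ M ∈ Γ, ∃ l : E, ∀ i j, x i j = l * ι ((M : Matrix (Fin 2) (Fin 2) (ZMod p)) i j)}
  one_mem' := by
    refine ⟨1, Γ.one_mem, 1, ?_⟩
    intro i j
    rw [one_mul, Units.val_one, Matrix.SpecialLinearGroup.coe_one]
    by_cases h : i = j
    · subst h; rw [Matrix.one_apply_eq, Matrix.one_apply_eq, map_one]
    · rw [Matrix.one_apply_ne h, Matrix.one_apply_ne h, map_zero]
  mul_mem' := by
    rintro x y ⟨M, hM, l, hx⟩ ⟨N, hN, l', hy⟩
    refine ⟨M * N, Γ.mul_mem hM hN, l * l', ?_⟩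
    intro i j
    rw [Matrix.SpecialLinearGroup.coe_mul, Units.val_mul, Matrix.mul_apply, Matrix.mul_apply,
      Fin.sum_univ_two, Fin.sum_univ_two, map_add, map_mul, map_mul, hx, hx, hy, hy]
    ring

/-- **D1**.  The scaled preimage of `Γ` in `SL₂(E)` is a subgroup. -/
theorem exists_Gt {p : ℕ} {E : Type*} [Field E] [Finite E] (ι : ZMod p →+* E)
    (Γ : Subgroup (GL (Fin 2) (ZMod p))) :
    ∃ Gt : Subgroup (SL2 E), ∀ x : SL2 E, x ∈ Gt ↔
      ∃ M ∈ Γ, ∃ l : E, ∀ i j, x i j = l * ι ((M : Matrix (Fin 2) (Fin 2) (ZMod p)) i j) := by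
  haveI : Finite (SL2 E) := by
    apply Finite.of_injective (fun x : SL2 E => (x : Matrix (Fin 2) (Fin 2) E))
    intro x y h
    exact Subtype.ext h
  refine ⟨{ GtMon ι Γ with
    inv_mem' := ?_ }, ?_⟩
  · intro x hx
    have hx' : x ∈ GtMon ι Γ := hx
    have hpos : 0 < orderOf x := orderOf_pos x
    have e : x⁻¹ = x ^ (orderOf x - 1) := by
      apply inv_eq_of_mul_eq_one_right
      rw [← pow_succ', Nat.sub_add_cancel hpos, pow_orderOf_eq_one]
    show x⁻¹ ∈ GtMon ι Γ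
    rw [e]
    exact pow_mem hx' _
  · intro x
    exact Iff.rfl

end Cfsg.Agent.H41RV
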