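import Mathlib
import Cfsg.Agent.Lib.H41RVDefs
import Cfsg.Agent.Lib.Helper41Dk6
import Cfsg.Agent.Lib.Helper41SL2Unip2

set_option autoImplicit false

namespace Cfsg.Agent.H41RV

open Matrix Cfsg.Agent.Lib.Helper46SL2 Cfsg.Agent.Lib.Helper41SL2 Cfsg.Agent.Lib.Helper41Dk

local notation "SL2" => Matrix.SpecialLinearGroup (Fin 2)

theorem D2_pow_central {p : ℕ} {E : Type*} [Field E] (ι : ZMod p →+* E)
    (k : ℕ) (M : GL (Fin 2) (ZMod p)) (hM : M ^ k = 1) (x : SL2 E) (l : E)
    (hx : ∀ i j, x i j = l * ι ((M : Matrix (Fin 2) (Fin 2) (ZMod p)) i j)) :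
    x ^ k ∈ Subgroup.center (SL2 E) := by
  have h1 : (x : Matrix (Fin 2) (Fin 2) E)
      = l • ι.mapMatrix (M : Matrix (Fin 2) (Fin 2) (ZMod p)) := by
    ext i j
    exact hx i j
  have h2 : ((x ^ k : SL2 E) : Matrix (Fin 2) (Fin 2) E) = l ^ k • 1 := by
    rw [Matrix.SpecialLinearGroup.coe_pow, h1, smul_pow, ← map_pow, ← Units.val_pow_eq_pow_val, hM,
      Units.val_one, map_one]
  have h3 : ∀ i j, (x ^ k) i j = (l ^ k • (1 : Matrix (Fin 2) (Fin 2) E)) i j := by
    intro i j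
    rw [← h2]
  rw [mem_center_iff, h3, h3, h3, h3]
  simp

theorem D2_aux {p : ℕ} [Fact p.Prime] {E : Type*} [Field E] [CharP E p]
    (k : ℕ) (hk : ¬ p ∣ k) (y : SL2 E) (hyk : y ^ k ∈ Subgroup.center (SL2 E))
    (hyZ : y ∉ Subgroup.center (SL2 E)) : tr y ≠ 2 := by
  intro ht
  obtain ⟨b, hb, hconj⟩ := exists_isConj_uu hyZ ht
  have h1 : IsConj (y ^ k) (uu b ^ k) := hconj.pow k
  obtain ⟨c, hc⟩ := isConj_iff.1 h1
  have h2 : c * y ^ k * c⁻¹ = y ^ k := by
    rw [Subgroup.mem_center_iff.1 hyk c, mul_inv_cancel_right]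
  rw [h2, uu_pow] at hc
  rw [hc] at hyk
  have h3 : (k : E) * b = 0 := by
    by_contra h
    exact uu_not_mem_center h hyk
  rcases mul_eq_zero.1 h3 with h | h
  · exact hk ((CharP.cast_eq_zero_iff E p k).1 h)
  · exact hb h

/-- **D2** (50m).  A scaled element of exponent prime to `p` is central or semisimple.
By induction `x^n i j = l^n * ι ((M^n) i j)`, so `x^k` is the scalar matrix `l^k`, hence central (`Helper46SL2.mem_center_iff`).
Suppose `tr x ^ 2 = 4`, i.e. `tr x = 2` or `tr x = -2`; replacing `x` by `-x = (-1) * x` (`tr_neg`; `(-x)^k = ± x^k` still central, `-x` still non central) we may assume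
`tr x = 2`.  `Helper41SL2.exists_isConj_uu hx ht` gives `b ≠ 0`, `IsConj x (uu b)`; then `(uu b)^k = uu (k * b)` (`uu_pow`) is conjugate to the central `x^k`, hence central, so
`(k : E) * b = 0` (`uu_not_mem_center`), `(k : E) = 0`, and `p ∣ k` (`CharP.cast_eq_zero_iff E p k`).  Contradiction. -/
theorem ss_of_scaled {p : ℕ} [Fact p.Prime] {E : Type*} [Field E] [CharP E p] (ι : ZMod p →+* E)
    (k : ℕ) (hk : ¬ p ∣ k) (M : GL (Fin 2) (ZMod p)) (hM : M ^ k = 1) (x : SL2 E) (l : E)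
    (hx : ∀ i j, x i j = l * ι ((M : Matrix (Fin 2) (Fin 2) (ZMod p)) i j))
    (hxZ : x ∉ Subgroup.center (SL2 E)) : tr x ^ 2 ≠ 4 := by
  intro h
  have h1 : (tr x - 2) * (tr x + 2) = 0 := by linear_combination h
  rcases mul_eq_zero.1 h1 with h2 | h2
  · exact D2_aux k hk x (D2_pow_central ι k M hM x l hx) hxZ (by linear_combination h2)
  · refine D2_aux k hk (-x) (D2_pow_central ι k M hM (-x) (-l) ?_) ?_ ?_
    · intro i j
      rw [neg_mul, ← hx i j]
      rfl
    · intro hc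
      apply hxZ
      rw [mem_center_iff_eq] at hc ⊢
      rcases hc with hc | hc
      · right
        rw [← hc, neg_neg]
      · left
        exact neg_injective hc
    · rw [tr_neg]
      linear_combination -h2

end Cfsg.Agent.H41RV
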