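import Mathlib
import Cfsg.Agent.Lib.H41RVDefs
import Cfsg.Agent.Lib.Helper41Dk6
import Cfsg.Agent.Lib.Helper41SL2Unip2

set_option autoImplicit false

namespace Cfsg.Agent.H41RV

open Matrix Cfsg.Agent.Lib.Helper46SL2 Cfsg.Agent.Lib.Helper41SL2 Cfsg.Agent.Lib.Helper41Dk

local notation "SL2" => Matrix.SpecialLinearGroup (Fin 2)

/-- **D3** (pure Mathlib).  Elements of `𝔽_p` are squares in `𝔽_{p²}`. -/
theorem exists_sqrt {p : ℕ} [Fact p.Prime] (hp2 : p ≠ 2) (c : ZMod p) (hc : c ≠ 0) :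
    ∃ l : GaloisField p 2, l ^ 2 * algebraMap (ZMod p) (GaloisField p 2) c = 1 := by
  classical
  have hp : p.Prime := Fact.out
  haveI : Fintype (GaloisField p 2) := Fintype.ofFinite _
  have hcard : Fintype.card (GaloisField p 2) = p ^ 2 := by
    rw [← Nat.card_eq_fintype_card, GaloisField.card p 2 two_ne_zero]
  have hodd : Odd p := hp.odd_of_ne_two hp2
  obtain ⟨m, hm⟩ := hodd
  have hc' : algebraMap (ZMod p) (GaloisField p 2) c ≠ 0 := by
    intro h
    exact hc ((map_eq_zero _).1 h)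
  have ha0 : (algebraMap (ZMod p) (GaloisField p 2) c)⁻¹ ≠ 0 := inv_ne_zero hc'
  have hpow : ((algebraMap (ZMod p) (GaloisField p 2) c)⁻¹) ^ (p - 1) = 1 := by
    rw [inv_pow, ← map_pow, ZMod.pow_card_sub_one_eq_one hc, map_one, inv_one]
  have hchar : ringChar (GaloisField p 2) ≠ 2 := by
    have : ringChar (GaloisField p 2) = p := ringChar.eq _ p
    rw [this]; exact hp2
  have hsq : IsSquare ((algebraMap (ZMod p) (GaloisField p 2) c)⁻¹) := by
    rw [FiniteField.isSquare_iff hchar ha0, hcard]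
    have e : p ^ 2 / 2 = (p - 1) * (m + 1) := by
      rw [hm]
      have : (2 * m + 1) ^ 2 = 2 * ((2 * m + 1 - 1) * (m + 1)) + 1 := by
        have h1 : 2 * m + 1 - 1 = 2 * m := by omega
        rw [h1]; ring
      rw [this]; omega
    rw [e, pow_mul, hpow, one_pow]
  obtain ⟨l, hl⟩ := hsq
  refine ⟨l, ?_⟩
  rw [pow_two, ← hl, inv_mul_cancel₀ hc']

end Cfsg.Agent.H41RV
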