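import Mathlib
import Cfsg.Agent.Lib.H41RVDefs2
import Cfsg.Agent.Lib.H41RVE1
import Cfsg.Agent.Lib.H41RVE6

set_option autoImplicit false

namespace Cfsg.Agent.H41RV

open Matrix Cfsg.Agent.Lib.Helper46SL2 Cfsg.Agent.Lib.Helper41SL2 Cfsg.Agent.Lib.Helper41Dk

local notation "SL2" => Matrix.SpecialLinearGroup (Fin 2)

theorem card_order_four_S4 :
    (Finset.univ.filter (fun σ : Equiv.Perm (Fin 4) => σ ^ 2 ≠ 1 ∧ σ ^ 3 ≠ 1)).card = 6 := by
  decide +kernel

/-- **E8**.  Pigeonhole in `S₄`. -/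
theorem no_thirteen {E : Type*} [Field E] [Finite E] {G : Subgroup (SL2 E)}
    (e : ↥(G.map (proj E)) ≃* Equiv.Perm (Fin 4)) (x : Fin 13 → SL2 E) (hx : ∀ j, x j ∈ G)
    (w : Fin 13 → Fin 2 → E) (ε : Fin 13 → E) (hev : ∀ j, Eig (x j) (w j) (ε j))
    (hind : ∀ i j, i ≠ j → dE (w i) (w j) ≠ 0) (h4 : ∀ j, ε j ^ 4 ≠ 1) (h6 : ∀ j, ε j ^ 6 ≠ 1) : False := by
  classical
  let y : Fin 13 → ↥(G.map (proj E)) := fun j => ⟨proj E (x j), Subgroup.mem_map_of_mem _ (hx j)⟩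
  let h : Fin 13 → Equiv.Perm (Fin 4) := fun j => e (y j)
  have hpow : ∀ j n, (h j) ^ n = 1 → x j ^ n ∈ Subgroup.center (SL2 E) := by
    intro j n hn
    have h1 : e ((y j) ^ n) = 1 := by rw [map_pow]; exact hn
    have h2 : (y j) ^ n = 1 := (MulEquiv.map_eq_one_iff e).mp h1
    have h3 : proj E (x j ^ n) = 1 := by
      have := congrArg Subtype.val h2
      rw [map_pow]
      simpa [y] using this
    exact (QuotientGroup.eq_one_iff _).mp h3
  have h2 : ∀ j, (h j) ^ 2 ≠ 1 := fun j hj => h4 j (by simpa using pow_eig (hev j) (hpow j 2 hj))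
  have h3 : ∀ j, (h j) ^ 3 ≠ 1 := fun j hj => h6 j (by simpa using pow_eig (hev j) (hpow j 3 hj))
  obtain ⟨σ, hσ, hcard⟩ := Finset.exists_lt_card_fiber_of_mul_lt_card_of_maps_to
    (s := (Finset.univ : Finset (Fin 13)))
    (t := Finset.univ.filter (fun σ : Equiv.Perm (Fin 4) => σ ^ 2 ≠ 1 ∧ σ ^ 3 ≠ 1)) (f := h) (n := 2)
    (fun j _ => by simp only [Finset.mem_filter, Finset.mem_univ, true_and]; exact ⟨h2 j, h3 j⟩)
    (by rw [card_order_four_S4]; simp)
  obtain ⟨a, ha, b, hb, c, hc, hab, hac, hbc⟩ := Finset.two_lt_card.mp hcard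
  simp only [Finset.mem_filter, Finset.mem_univ, true_and] at ha hb hc
  have key : ∀ i j, h i = h j → ∃ e', Eig (x i) (w j) e' := by
    intro i j hij
    have h1 : y i = y j := e.injective hij
    have h2 : proj E (x i) = proj E (x j) := congrArg Subtype.val h1
    have h3 : (x j)⁻¹ * x i ∈ Subgroup.center (SL2 E) := QuotientGroup.eq.mp h2.symm
    rcases mem_center_iff_eq.mp h3 with h | h
    · have hxx : x i = x j := (inv_mul_eq_one.mp h).symm
      exact ⟨ε j, hxx ▸ hev j⟩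
    · have hxx : x i = - x j := by
        have h5 : x i = x j * (-1) := by rw [← h]; group
        rw [h5]; simp
      refine ⟨-ε j, (hev j).1, ?_⟩
      rw [hxx]
      simp [Matrix.SpecialLinearGroup.coe_neg, Matrix.neg_mulVec, (hev j).2]
  obtain ⟨eb, hb'⟩ := key a b (ha.trans hb.symm)
  obtain ⟨ec, hc'⟩ := key a c (ha.trans hc.symm)
  have hcen := central_of_three (x a) (hev a) hb' hc' (hind _ _ hab) (hind _ _ hac) (hind _ _ hbc)
  have h1 := pow_eig (hev a) (n := 1) (by simpa using hcen)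
  apply h4 a
  calc ε a ^ 4 = (ε a ^ (2 * 1)) ^ 2 := by ring
    _ = 1 := by rw [h1]; simp

end Cfsg.Agent.H41RV
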