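import Mathlib
import Cfsg.Agent.Lib.H41RVDefs2

set_option autoImplicit false

namespace Cfsg.Agent.H41RV

open Matrix Cfsg.Agent.Lib.Helper46SL2 Cfsg.Agent.Lib.Helper41SL2 Cfsg.Agent.Lib.Helper41Dk

local notation "SL2" => Matrix.SpecialLinearGroup (Fin 2)

/-- **N2**.  Non proportional vectors have non zero determinant. -/
theorem dt_ne_zero {p : ℕ} [Fact p.Prime] {v v' : V2 p} (hv' : v' ≠ 0) (h : ∀ c : ZMod p, v ≠ c • v') :
    dt v v' ≠ 0 := by
  intro h0
  unfold dt at h0
  have h1 : v 0 * v' 1 = v 1 * v' 0 := sub_eq_zero.1 h0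
  by_cases h00 : v' 0 = 0
  · have h11 : v' 1 ≠ 0 := by
      intro h11
      apply hv'
      funext i
      fin_cases i
      · exact h00
      · exact h11
    apply h (v 1 / v' 1)
    funext i
    fin_cases i
    · simp only [Fin.zero_eta, Pi.smul_apply, smul_eq_mul, h00, mul_zero]
      rw [h00, mul_zero] at h1
      exact (mul_eq_zero.1 h1).resolve_right h11
    · simp only [Fin.mk_one, Pi.smul_apply, smul_eq_mul]
      field_simp
  · apply h (v 0 / v' 0)
    funext i
    fin_cases i
    · simp only [Fin.zero_eta, Pi.smul_apply, smul_eq_mul]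
      field_simp
    · simp only [Fin.mk_one, Pi.smul_apply, smul_eq_mul]
      field_simp
      rw [h1]

end Cfsg.Agent.H41RV
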