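import Mathlib
import Cfsg.Agent.Lib.H41RVCore
import Cfsg.Agent.Lib.H41RVE8
import Cfsg.Agent.Lib.H41RVD1
import Cfsg.Agent.Lib.H41RVD2
import Cfsg.Agent.Lib.H41RVD3

set_option autoImplicit false

namespace Cfsg.Agent.H41RV

open Matrix Cfsg.Agent.Lib.Helper46SL2 Cfsg.Agent.Lib.Helper41SL2 Cfsg.Agent.Lib.Helper41Dk

local notation "SL2" => Matrix.SpecialLinearGroup (Fin 2)

/-- thirteen eigenlines are impossible -/
theorem no13 {E : Type*} [Field E] [Fintype E] (h2 : (2 : E) ≠ 0) {G : Subgroup (SL2 E)}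
    (hZ : Subgroup.center (SL2 E) ≤ G)
    (hss : ∀ x ∈ G, x ∉ Subgroup.center (SL2 E) → tr x ^ 2 ≠ 4)
    (x : Fin 13 → SL2 E) (hx : ∀ j, x j ∈ G)
    (w : Fin 13 → Fin 2 → E) (ε : Fin 13 → E) (hev : ∀ j, Eig (x j) (w j) (ε j))
    (hind : ∀ i j, i ≠ j → dE (w i) (w j) ≠ 0) (h4 : ∀ j, ε j ^ 4 ≠ 1) (h6 : ∀ j, ε j ^ 6 ≠ 1)
    (h10 : ∀ j, ε j ^ 10 ≠ 1) : False := by
  rcases core3 hZ hss (hx 0) (hx 1) (hx 2) (hev 0) (hev 1) (hev 2) (hind 0 1 (by decide))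
    (hind 0 2 (by decide)) (hind 1 2 (by decide)) with h | hP
  · rcases h with h | h | h
    · exact h4 _ h
    · exact h4 _ h
    · exact h4 _ h
  · rcases hP with ⟨h12, hnc⟩ | ⟨h24, hnc, y, -, hyZ, hA, hN⟩ | h60
    · rcases pow_mem_center_12 hZ h12 hnc (hx 0) with k | k
      · exact h4 0 (pow_eig (hev 0) k)
      · exact h6 0 (pow_eig (hev 0) k)
    · obtain ⟨e'⟩ := iso_24 hZ h24 hnc hyZ hA hN
      exact no_thirteen e' x hx w ε hev hind h4 h6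
    · rcases pow_mem_center_60 h2 h60 (hx 0) with k | k | k
      · exact h4 0 (pow_eig (hev 0) k)
      · exact h6 0 (pow_eig (hev 0) k)
      · exact h10 0 (pow_eig (hev 0) k)

/-- the bridge from `Γ ≤ GL₂(p)` to `SL₂(p²)` -/
theorem bridge {p : ℕ} [Fact p.Prime] (hp2 : p ≠ 2) (Γ : Subgroup (GL (Fin 2) (ZMod p))) (k : ℕ)
    (hk : ¬ p ∣ k) (hΓ : ∀ M ∈ Γ, M ^ k = 1) :
    ∃ Gt : Subgroup (SL2 (GaloisField p 2)), Subgroup.center (SL2 (GaloisField p 2)) ≤ Gt ∧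
      (∀ x ∈ Gt, x ∉ Subgroup.center (SL2 (GaloisField p 2)) → tr x ^ 2 ≠ 4) ∧
      ∀ M ∈ Γ, ∀ (v : V2 p) (t : (ZMod p)ˣ), v ≠ 0 →
        (M : Matrix (Fin 2) (Fin 2) (ZMod p)).mulVec v = ((t⁻¹ : (ZMod p)ˣ) : ZMod p) • v →
        (M : Matrix (Fin 2) (Fin 2) (ZMod p)).det = (t : ZMod p) →
        ∃ x ∈ Gt, ∃ e : GaloisField p 2,
          Eig x (fun i => algebraMap (ZMod p) (GaloisField p 2) (v i)) e ∧
          e ^ 2 = algebraMap (ZMod p) (GaloisField p 2) ((t⁻¹ : (ZMod p)ˣ) : ZMod p) ^ 3 := by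
  set ι := algebraMap (ZMod p) (GaloisField p 2) with hι
  obtain ⟨Gt, hGt⟩ := exists_Gt ι Γ
  refine ⟨Gt, ?_, ?_, ?_⟩
  · intro x hx
    rw [hGt]
    rcases mem_center_iff_eq.mp hx with rfl | rfl
    · refine ⟨1, one_mem _, 1, ?_⟩
      intro i j
      fin_cases i <;> fin_cases j <;> simp
    · refine ⟨1, one_mem _, -1, ?_⟩
      intro i j
      fin_cases i <;> fin_cases j <;> simp
  · intro x hx hxZ
    obtain ⟨M, hM, l, hl⟩ := (hGt x).mp hx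
    exact ss_of_scaled ι k hk M (hΓ M hM) x l hl hxZ
  · intro M hM v t hv h1 h2
    obtain ⟨l, hl⟩ := exists_sqrt hp2 (t : ZMod p) t.ne_zero
    rw [← hι] at hl
    have hdet : (M : Matrix (Fin 2) (Fin 2) (ZMod p)) 0 0 * (M : Matrix (Fin 2) (Fin 2) (ZMod p)) 1 1 -
        (M : Matrix (Fin 2) (Fin 2) (ZMod p)) 0 1 * (M : Matrix (Fin 2) (Fin 2) (ZMod p)) 1 0 = (t : ZMod p) := by
      rw [← h2, Matrix.det_fin_two]
    have hd : (l * ι ((M : Matrix (Fin 2) (Fin 2) (ZMod p)) 0 0)) * (l * ι ((M : Matrix (Fin 2) (Fin 2) (ZMod p)) 1 1)) -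
        (l * ι ((M : Matrix (Fin 2) (Fin 2) (ZMod p)) 0 1)) * (l * ι ((M : Matrix (Fin 2) (Fin 2) (ZMod p)) 1 0)) = 1 := by
      rw [← hl, ← hdet, map_sub, map_mul, map_mul]; ring
    refine ⟨mk2 _ _ _ _ hd, (hGt _).mpr ⟨M, hM, l, ?_⟩, l * ι ((t⁻¹ : (ZMod p)ˣ) : ZMod p), ⟨?_, ?_⟩, ?_⟩
    · intro i j
      fin_cases i <;> fin_cases j <;> rfl
    · intro h0
      apply hv
      funext i
      have := congrFun h0 i
      exact (map_eq_zero ι).mp this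
    · have e0 := congrFun h1 0
      have e1 := congrFun h1 1
      simp only [Matrix.mulVec, dotProduct, Fin.sum_univ_two, Pi.smul_apply, smul_eq_mul] at e0 e1
      have f0 := congrArg ι e0
      have f1 := congrArg ι e1
      simp only [map_add, map_mul] at f0 f1
      funext i
      fin_cases i
      · simp only [Matrix.mulVec, dotProduct, Fin.sum_univ_two, Pi.smul_apply, smul_eq_mul]
        change l * ι _ * ι (v 0) + l * ι _ * ι (v 1) = l * ι _ * ι (v 0)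
        linear_combination l * f0
      · simp only [Matrix.mulVec, dotProduct, Fin.sum_univ_two, Pi.smul_apply, smul_eq_mul]
        change l * ι _ * ι (v 0) + l * ι _ * ι (v 1) = l * ι _ * ι (v 1)
        linear_combination l * f1
    · have h3 : ι (t : ZMod p) * ι ((t⁻¹ : (ZMod p)ˣ) : ZMod p) = 1 := by
        rw [← map_mul, Units.mul_inv, map_one]
      have h4 : l ^ 2 = ι ((t⁻¹ : (ZMod p)ˣ) : ZMod p) := by
        calc l ^ 2 = l ^ 2 * (ι (t : ZMod p) * ι ((t⁻¹ : (ZMod p)ˣ) : ZMod p)) := by rw [h3, mul_one]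
          _ = (l ^ 2 * ι (t : ZMod p)) * ι ((t⁻¹ : (ZMod p)ˣ) : ZMod p) := by ring
          _ = _ := by rw [hl, one_mul]
      calc (l * ι ((t⁻¹ : (ZMod p)ˣ) : ZMod p)) ^ 2 = l ^ 2 * ι ((t⁻¹ : (ZMod p)ˣ) : ZMod p) ^ 2 := by ring
        _ = _ := by rw [h4]; ring

end Cfsg.Agent.H41RV
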