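import Mathlib
import Cfsg.Agent.Lib.H41RVStage3
import Cfsg.Agent.Lib.H41RVN2

set_option autoImplicit false

namespace Cfsg.Agent.H41RV

open Matrix Cfsg.Agent.Lib.Helper46SL2 Cfsg.Agent.Lib.Helper41SL2 Cfsg.Agent.Lib.Helper41Dk

local notation "SL2" => Matrix.SpecialLinearGroup (Fin 2)

theorem order_lemma {p : ℕ} [Fact p.Prime] (t₀ : (ZMod p)ˣ) (ht₀ : orderOf t₀ = p - 1)
    {e : GaloisField p 2}
    (he : e ^ 2 = algebraMap (ZMod p) (GaloisField p 2) ((t₀⁻¹ : (ZMod p)ˣ) : ZMod p) ^ 3) {n : ℕ}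
    (hn : e ^ (2 * n) = 1) : (p - 1) ∣ 3 * n := by
  rw [pow_mul, he, ← pow_mul, ← map_pow] at hn
  have h1 : (((t₀⁻¹ : (ZMod p)ˣ) : ZMod p)) ^ (3 * n) = 1 := by
    apply (algebraMap (ZMod p) (GaloisField p 2)).injective
    rw [hn, map_one]
  have h2 : (t₀⁻¹ : (ZMod p)ˣ) ^ (3 * n) = 1 := by
    apply Units.ext
    rw [Units.val_pow_eq_pow_val, h1, Units.val_one]
  have h3 := orderOf_dvd_of_pow_eq_one h2
  rwa [orderOf_inv, ht₀] at h3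

theorem exists_gen (p : ℕ) [Fact p.Prime] : ∃ t₀ : (ZMod p)ˣ, orderOf t₀ = p - 1 := by
  obtain ⟨t₀, h⟩ := IsCyclic.exists_generator (α := (ZMod p)ˣ)
  refine ⟨t₀, ?_⟩
  rw [orderOf_eq_card_of_forall_mem_zpowers h, Nat.card_eq_fintype_card, ZMod.card_units]

theorem two_ne_zero' {p : ℕ} [Fact p.Prime] (hp2 : p ≠ 2) : (2 : GaloisField p 2) ≠ 0 := by
  intro h
  have h1 : ((2 : ℕ) : GaloisField p 2) = 0 := by exact_mod_cast h
  rw [CharP.cast_eq_zero_iff (GaloisField p 2) p] at h1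
  exact hp2 ((Nat.prime_dvd_prime_iff_eq (Fact.out : p.Prime) Nat.prime_two).mp h1)

theorem dE_map {p : ℕ} [Fact p.Prime] (v v' : V2 p) :
    dE (fun i => algebraMap (ZMod p) (GaloisField p 2) (v i))
      (fun i => algebraMap (ZMod p) (GaloisField p 2) (v' i)) =
      algebraMap (ZMod p) (GaloisField p 2) (dt v v') := by
  simp only [dE, dt, map_sub, map_mul]

theorem dE_map_ne {p : ℕ} [Fact p.Prime] {v v' : V2 p} (h : dt v v' ≠ 0) :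
    dE (fun i => algebraMap (ZMod p) (GaloisField p 2) (v i))
      (fun i => algebraMap (ZMod p) (GaloisField p 2) (v' i)) ≠ 0 := by
  rw [dE_map]
  exact fun h0 => h ((map_eq_zero _).mp h0)

/-- the torus hypothesis -/
def Tor {p : ℕ} (Γ : Subgroup (GL (Fin 2) (ZMod p))) (v : V2 p) : Prop :=
  ∀ t : (ZMod p)ˣ, ∃ M ∈ Γ,
    (M : Matrix (Fin 2) (Fin 2) (ZMod p)).mulVec v = ((t⁻¹ : (ZMod p)ˣ) : ZMod p) • v ∧
    (M : Matrix (Fin 2) (Fin 2) (ZMod p)).det = (t : ZMod p)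

theorem div_lemma {p : ℕ} [Fact p.Prime] (hp2 : p ≠ 2) (Γ : Subgroup (GL (Fin 2) (ZMod p))) (k : ℕ)
    (hk : ¬ p ∣ k) (hΓ : ∀ M ∈ Γ, M ^ k = 1) {v₁ v₂ v₃ : V2 p} (n₁ : v₁ ≠ 0) (n₂ : v₂ ≠ 0) (n₃ : v₃ ≠ 0)
    (d12 : dt v₁ v₂ ≠ 0) (d13 : dt v₁ v₃ ≠ 0) (d23 : dt v₂ v₃ ≠ 0)
    (T₁ : Tor Γ v₁) (T₂ : Tor Γ v₂) (T₃ : Tor Γ v₃) :
    (p - 1) ∣ 6 ∨ (p - 1) ∣ 9 ∨ (p - 1) ∣ 12 ∨ (p - 1) ∣ 15 := by
  obtain ⟨t₀, ht₀⟩ := exists_gen p
  obtain ⟨Gt, hZ, hss, hbr⟩ := bridge hp2 Γ k hk hΓ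
  obtain ⟨M₁, hM₁, a₁, b₁⟩ := T₁ t₀
  obtain ⟨M₂, hM₂, a₂, b₂⟩ := T₂ t₀
  obtain ⟨M₃, hM₃, a₃, b₃⟩ := T₃ t₀
  obtain ⟨x₁, hx₁, e₁, E₁, s₁⟩ := hbr M₁ hM₁ v₁ t₀ n₁ a₁ b₁
  obtain ⟨x₂, hx₂, e₂, E₂, s₂⟩ := hbr M₂ hM₂ v₂ t₀ n₂ a₂ b₂
  obtain ⟨x₃, hx₃, e₃, E₃, s₃⟩ := hbr M₃ hM₃ v₃ t₀ n₃ a₃ b₃
  have k4 : ∀ e : GaloisField p 2,
      e ^ 2 = algebraMap (ZMod p) (GaloisField p 2) ((t₀⁻¹ : (ZMod p)ˣ) : ZMod p) ^ 3 → e ^ 4 = 1 →
      (p - 1) ∣ 6 := fun e he h => order_lemma t₀ ht₀ he (n := 2) h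
  rcases core3 hZ hss hx₁ hx₂ hx₃ E₁ E₂ E₃ (dE_map_ne d12) (dE_map_ne d13) (dE_map_ne d23) with h | hP
  · rcases h with h | h | h
    · exact Or.inl (k4 _ s₁ h)
    · exact Or.inl (k4 _ s₂ h)
    · exact Or.inl (k4 _ s₃ h)
  · letI : Fintype (GaloisField p 2) := Fintype.ofFinite _
    rcases poly_eig (two_ne_zero' hp2) hZ hP hx₁ E₁ with h | h | h | h
    · exact Or.inl (k4 _ s₁ h)
    · exact Or.inr (Or.inl (order_lemma t₀ ht₀ s₁ (n := 3) h))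
    · exact Or.inr (Or.inr (Or.inl (order_lemma t₀ ht₀ s₁ (n := 4) h)))
    · exact Or.inr (Or.inr (Or.inr (order_lemma t₀ ht₀ s₁ (n := 5) h)))

theorem final54 {p : ℕ} [Fact p.Prime] (hp2 : p ≠ 2) (Γ : Subgroup (GL (Fin 2) (ZMod p))) (k : ℕ)
    (hk : ¬ p ∣ k) (hΓ : ∀ M ∈ Γ, M ^ k = 1) (v : Fin 3 → V2 p) (hv0 : ∀ i, v i ≠ 0)
    (hind : ∀ i j, i ≠ j → ∀ c : ZMod p, v i ≠ c • v j) (T : ∀ i, Tor Γ (v i)) : p ≤ 13 := by
  have hpp : p.Prime := Fact.out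
  have h := div_lemma hp2 Γ k hk hΓ (hv0 0) (hv0 1) (hv0 2)
    (dt_ne_zero (hv0 1) (hind 0 1 (by decide))) (dt_ne_zero (hv0 2) (hind 0 2 (by decide)))
    (dt_ne_zero (hv0 2) (hind 1 2 (by decide))) (T 0) (T 1) (T 2)
  have h16 : p ≤ 16 := by
    rcases h with h | h | h | h
    · have := Nat.le_of_dvd (by norm_num) h; omega
    · have := Nat.le_of_dvd (by norm_num) h; omega
    · have := Nat.le_of_dvd (by norm_num) h; omega
    · have := Nat.le_of_dvd (by norm_num) h; omega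
  by_contra hcon
  push Not at hcon
  interval_cases p
  · exact absurd hpp (by norm_num)
  · exact absurd hpp (by norm_num)
  · exact absurd hpp (by norm_num)

theorem fin13 : ∀ i j : Fin 13, i ≠ j → ((j.val : ZMod 13) - (i.val : ZMod 13)) ≠ 0 := by decide

theorem final55 {p : ℕ} [Fact p.Prime] (hp2 : p ≠ 2) (Γ : Subgroup (GL (Fin 2) (ZMod p))) (k : ℕ)
    (hk : ¬ p ∣ k) (hΓ : ∀ M ∈ Γ, M ^ k = 1) (T : ∀ v : V2 p, v ≠ 0 → Tor Γ v) : p ≤ 7 := by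
  have hpp : p.Prime := Fact.out
  have m₁ : (![1, 0] : V2 p) ≠ 0 := fun h => one_ne_zero (congrFun h 0)
  have m₂ : (![0, 1] : V2 p) ≠ 0 := fun h => one_ne_zero (congrFun h 1)
  have m₃ : (![1, 1] : V2 p) ≠ 0 := fun h => one_ne_zero (congrFun h 0)
  have h := div_lemma hp2 Γ k hk hΓ m₁ m₂ m₃ (by simp [dt]) (by simp [dt]) (by simp [dt])
    (T _ m₁) (T _ m₂) (T _ m₃)
  by_contra hcon
  push Not at hcon
  have h13 : p = 13 := by
    have h16 : p ≤ 16 := by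
      rcases h with h | h | h | h
      · have := Nat.le_of_dvd (by norm_num) h; omega
      · have := Nat.le_of_dvd (by norm_num) h; omega
      · have := Nat.le_of_dvd (by norm_num) h; omega
      · have := Nat.le_of_dvd (by norm_num) h; omega
    interval_cases p
    · exact absurd hpp (by norm_num)
    · exact absurd hpp (by norm_num)
    · exact absurd hpp (by norm_num)
    · exact absurd h (by norm_num)
    · exact absurd hpp (by norm_num)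
    · rfl
    · exact absurd hpp (by norm_num)
    · exact absurd hpp (by norm_num)
    · exact absurd hpp (by norm_num)
  subst h13
  obtain ⟨t₀, ht₀⟩ := exists_gen 13
  obtain ⟨Gt, hZ, hss, hbr⟩ := bridge hp2 Γ k hk hΓ
  let v : Fin 13 → V2 13 := fun j => ![1, (j.val : ZMod 13)]
  have hv : ∀ j, v j ≠ 0 := fun j h => one_ne_zero (congrFun h 0)
  have key : ∀ j, ∃ x ∈ Gt, ∃ e : GaloisField 13 2,
      Eig x (fun i => algebraMap (ZMod 13) (GaloisField 13 2) (v j i)) e ∧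
      e ^ 2 = algebraMap (ZMod 13) (GaloisField 13 2) ((t₀⁻¹ : (ZMod 13)ˣ) : ZMod 13) ^ 3 := by
    intro j
    obtain ⟨M, hM, a, b⟩ := T _ (hv j) t₀
    exact hbr M hM (v j) t₀ (hv j) a b
  choose x hx e hE hs using key
  letI : Fintype (GaloisField 13 2) := Fintype.ofFinite _
  refine no13 (two_ne_zero' hp2) hZ hss x hx _ e hE ?_ ?_ ?_ ?_
  · intro i j hij
    apply dE_map_ne
    have : dt (v i) (v j) = (j.val : ZMod 13) - (i.val : ZMod 13) := by simp [dt, v]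
    rw [this]
    exact fin13 i j hij
  · intro j h
    have := order_lemma t₀ ht₀ (hs j) (n := 2) h
    revert this; decide
  · intro j h
    have := order_lemma t₀ ht₀ (hs j) (n := 3) h
    revert this; decide
  · intro j h
    have := order_lemma t₀ ht₀ (hs j) (n := 5) h
    revert this; decide

end Cfsg.Agent.H41RV
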