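import Mathlib
import Cfsg.Agent.Lib.H41RVDefs
import Cfsg.Agent.Lib.H41RVB1
import Cfsg.Agent.Lib.H41RVB2
import Cfsg.Agent.Lib.H41RVB3
import Cfsg.Agent.Lib.H41RVB6
import Cfsg.Agent.Lib.H41RVC0
import Cfsg.Agent.Lib.H41RVC3
import Cfsg.Agent.Lib.H41RVC4
import Cfsg.Agent.Lib.H41RVC5

set_option autoImplicit false

namespace Cfsg.Agent.H41RV

/-- Stage 1 + 2: the matrix group induced by `N_G(P)` and its torus elements. -/
theorem T12 {G : Type*} [Group G] [Finite G] {p : ℕ} [Fact p.Prime] (P : Sylow p G)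
    (h : ES p ↥(P : Subgroup G)) :
    ∃ (Γ : Subgroup (GL (Fin 2) (ZMod p))) (k : ℕ) (q : ↥(P : Subgroup G) →* Multiplicative (V2 p))
      (z : ↥(P : Subgroup G)), ¬ p ∣ k ∧ (∀ M ∈ Γ, M ^ k = 1) ∧ IsCoord q ∧
      z ∈ Subgroup.center ↥(P : Subgroup G) ∧ z ≠ 1 ∧
      ∀ a : ↥(P : Subgroup G), (q a).toAdd ≠ 0 →
        (∀ s : ℕ, ∃ g : G, g * (z : G) * g⁻¹ = (z : G) * (a : G) ^ s ∧ g * (a : G) * g⁻¹ = (a : G)) →
        ∀ t : (ZMod p)ˣ, ∃ M ∈ Γ,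
          (M : Matrix (Fin 2) (Fin 2) (ZMod p)).mulVec (q a).toAdd = ((t⁻¹ : (ZMod p)ˣ) : ZMod p) • (q a).toAdd ∧
          (M : Matrix (Fin 2) (Fin 2) (ZMod p)).det = (t : ZMod p) := by
  obtain ⟨q, hq⟩ := exists_q h
  obtain ⟨z, hz0⟩ := exists_z0 h hq
  obtain ⟨D, hD⟩ := exists_D hq
  refine ⟨(D.comp (P : Subgroup G).normalizerMonoidHom).range, (P : Subgroup G).index, q, z,
    P.not_dvd_index, ?_, hq, hz0.1, hz0.2.1, ?_⟩
  · rintro M ⟨g, rfl⟩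
    exact pow_index_eq_one P hq D hD g
  · intro a ha hσ t
    obtain ⟨y, hya, hgen⟩ := exists_y h hq hz0 z a hz0.1 hz0.2.1 ha
    have hzc : ∀ u : ↥(P : Subgroup G), z * u = u * z := fun u =>
      ((Subgroup.mem_center_iff.mp hz0.1) u).symm
    have hp1 : 1 < p := (Fact.out : p.Prime).one_lt
    have htt : (t : ZMod p).val * ((t⁻¹ : (ZMod p)ˣ) : ZMod p).val % p = 1 := by
      have h1 : (((t : ZMod p).val * ((t⁻¹ : (ZMod p)ˣ) : ZMod p).val : ℕ) : ZMod p) = 1 := by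
        rw [Nat.cast_mul, ZMod.natCast_zmod_val, ZMod.natCast_zmod_val]
        exact Units.mul_inv t
      have h2 := congrArg ZMod.val h1
      rw [ZMod.val_natCast] at h2
      have : Fact (1 < p) := ⟨hp1⟩
      rw [h2, ZMod.val_one]
    have e1 : (z : G) * (a : G) = (a : G) * (z : G) := congrArg Subtype.val (hzc a)
    have e2 : (z : G) * (y : G) = (y : G) * (z : G) := congrArg Subtype.val (hzc y)
    have e3 : (y : G) * (a : G) * (y : G)⁻¹ = (a : G) * (z : G) := congrArg Subtype.val hya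
    have e4 : (z : G) ^ p = 1 := congrArg Subtype.val (h.exp z)
    have e5 : (a : G) ^ p = 1 := congrArg Subtype.val (h.exp a)
    obtain ⟨g₀, h1, h2⟩ := torus_elt (z : G) (a : G) (y : G) e1 e2 e3 e4 e5 hσ _ _ htt
    have hgen' : ∀ u ∈ (P : Subgroup G), ∃ k i j : ℕ, u = (y : G) ^ k * (a : G) ^ i * (z : G) ^ j := by
      intro u hu
      obtain ⟨k, i, j, hk⟩ := hgen ⟨u, hu⟩
      exact ⟨k, i, j, congrArg Subtype.val hk⟩
    obtain ⟨g, hgN, h3, h4⟩ := exists_normalizer_elt P (z : G) (a : G) (y : G) g₀ y.2 e1 e2 e3 e4 e5 hgen'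
      _ _ htt h1 h2
    refine ⟨D ((P : Subgroup G).normalizerMonoidHom ⟨g, hgN⟩), ⟨⟨g, hgN⟩, rfl⟩, ?_⟩
    have := mat_of_elt P h hq hz0 ⟨g, hgN⟩ (hD _) z a hz0.1 hz0.2.1 _ _ h3 h4
    rw [ZMod.natCast_zmod_val, ZMod.natCast_zmod_val] at this
    exact this

end Cfsg.Agent.H41RV
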