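import Mathlib
import Cfsg.Agent.Lib.H41RVT12
import Cfsg.Agent.Lib.H41RVFinal
import Cfsg.Agent.Lib.H41RVB7
import Cfsg.Agent.Lib.H41RVB8
import Cfsg.Agent.Lib.H41RVC1

set_option autoImplicit false

namespace Cfsg.Agent.H41RV

theorem row54 {G : Type*} [Group G] [Finite G]
    {p : ℕ} [Fact p.Prime] (hp : p ≠ 2) (P : Sylow p G) (h : ES p ↥(P : Subgroup G))
    (A : Fin 3 → Subgroup G) (hA : Function.Injective A) (hAP : ∀ i, A i ≤ (P : Subgroup G))
    (hAcard : ∀ i, Nat.card ↥(A i) = p ^ 2)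
    (hSL : ∀ i, ∀ φ : MulAut ↥(A i), orderOf φ = p → ∃ g : G, ∀ a : ↥(A i), (φ a : G) = g * (a : G) * g⁻¹) :
    p ≤ 13 := by
  obtain ⟨Γ, k, q, z, hk, hΓ, hq, hzc, hz1, hT⟩ := T12 P h
  have hcard' : ∀ i, Nat.card ↥((A i).subgroupOf (P : Subgroup G)) = p ^ 2 := fun i => by
    rw [← hAcard i]
    exact Nat.card_congr (Subgroup.subgroupOfEquivOfLe (hAP i)).toEquiv
  have hl := fun i => line_of_sub h hq ((A i).subgroupOf (P : Subgroup G)) (hcard' i)
  choose hcen a haA ha0 _hspan using hl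
  have hker : ∀ c : ↥(P : Subgroup G), c ∈ Subgroup.center ↥(P : Subgroup G) → (q c).toAdd = 0 := by
    intro c hc
    rw [← hq.ker] at hc
    have : q c = 1 := hc
    rw [this]; rfl
  refine final54 hp Γ k hk hΓ (fun i => (q (a i)).toAdd) ha0 ?_ ?_
  · intro i j hij c hc
    apply hij
    apply hA
    have := sub_eq_of_prop h hq _ _ (hcard' i) (hcard' j) (haA i) (haA j) (ha0 i) hc
    have h2 := Subgroup.subgroupOf_inj.mp this
    rwa [inf_eq_left.mpr (hAP i), inf_eq_left.mpr (hAP j)] at h2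
  · intro i
    apply hT (a i) (ha0 i)
    apply sigma_of_hSL (A i) (hAcard i) _ (z : G) (a i : G) _ _ _ _ (hSL i)
    · intro x hx
      exact congrArg Subtype.val (h.exp ⟨x, hAP i hx⟩)
    · exact Subgroup.mem_subgroupOf.mp (hcen i hzc)
    · exact Subgroup.mem_subgroupOf.mp (haA i)
    · intro h1
      exact hz1 (Subtype.ext h1)
    · rintro ⟨n, hn⟩
      apply ha0 i
      apply hker
      have : a i = z ^ n := Subtype.ext (by rw [← hn]; simp)
      rw [this]
      exact zpow_mem hzc n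

end Cfsg.Agent.H41RV
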