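import Mathlib
import Cfsg.Agent.Lib.H41RVT12
import Cfsg.Agent.Lib.H41RVFinal
import Cfsg.Agent.Lib.H41RVC2

set_option autoImplicit false

namespace Cfsg.Agent.H41RV

theorem row55 {G : Type*} [Group G] [Finite G]
    {p : ℕ} [Fact p.Prime] (hp : p ≠ 2) (P : Sylow p G) (h : ES p ↥(P : Subgroup G))
    (hconj : ∀ x y : ↥(P : Subgroup G), x ≠ 1 → y ≠ 1 → ∃ g : G, g * (x : G) * g⁻¹ = (y : G)) :
    p ≤ 7 := by
  obtain ⟨Γ, k, q, z, hk, hΓ, hq, hzc, hz1, hT⟩ := T12 P h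
  have hker : ∀ c : ↥(P : Subgroup G), c ∈ Subgroup.center ↥(P : Subgroup G) → (q c).toAdd = 0 := by
    intro c hc
    rw [← hq.ker] at hc
    have : q c = 1 := hc
    rw [this]; rfl
  have hzp : ∀ c : ↥(P : Subgroup G), c ∈ Subgroup.center ↥(P : Subgroup G) →
      (c : G) ∈ Subgroup.zpowers (z : G) := by
    intro c hc
    have h1 : (⟨c, hc⟩ : Subgroup.center ↥(P : Subgroup G)) ∈
        Subgroup.zpowers (⟨z, hzc⟩ : Subgroup.center ↥(P : Subgroup G)) :=
      mem_zpowers_of_prime_card h.es.2 (fun h0 => hz1 (congrArg Subtype.val h0))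
    obtain ⟨n, hn⟩ := h1
    refine ⟨n, ?_⟩
    have := congrArg (fun t : Subgroup.center ↥(P : Subgroup G) => ((t : ↥(P : Subgroup G)) : G)) hn
    simpa using this
  refine final55 hp Γ k hk hΓ ?_
  intro v hv
  obtain ⟨a, ha⟩ := hq.surj (Multiplicative.ofAdd v)
  have hav : (q a).toAdd = v := by rw [ha]; rfl
  rw [← hav] at hv ⊢
  apply hT a hv
  have ha1 : a ≠ 1 := by
    rintro rfl
    apply hv
    rw [map_one]; rfl
  obtain ⟨g, hg⟩ := hconj z a hz1 ha1
  apply sigma_of_conj P _ (z : G) (a : G) z.2 a.2 _ _ _ _ _ g hg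
  · intro u hu
    exact congrArg Subtype.val (h.exp ⟨u, hu⟩)
  · intro h1
    exact hz1 (Subtype.ext h1)
  · intro u hu
    exact congrArg Subtype.val ((Subgroup.mem_center_iff.mp hzc) ⟨u, hu⟩).symm
  · intro c hc hcc
    apply hzp ⟨c, hc⟩
    rw [Subgroup.mem_center_iff]
    intro u
    exact Subtype.ext (hcc u u.2).symm
  · intro u hu w hw
    have h3 : (⟨u, hu⟩ : ↥(P : Subgroup G)) * ⟨w, hw⟩ * (⟨u, hu⟩ : ↥(P : Subgroup G))⁻¹ *
        (⟨w, hw⟩ : ↥(P : Subgroup G))⁻¹ ∈ Subgroup.center ↥(P : Subgroup G) := by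
      rw [← h.es.1.2.2]
      exact Subgroup.commutator_mem_commutator (Subgroup.mem_top _) (Subgroup.mem_top _)
    exact hzp _ h3
  · intro hall
    apply hv
    apply hker
    rw [Subgroup.mem_center_iff]
    intro u
    exact Subtype.ext (hall u u.2).symm

end Cfsg.Agent.H41RV
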