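import Mathlib
import Cfsg.Agent.Lib.Helper45OspDefs

/-!
PROJECT 2487 (SM): any two Sylow 2-subgroups of `O^+_{2m}(2)` meet non-trivially (S2487).
Vocabulary.
-/

set_option autoImplicit false

namespace Cfsg.Agent.Lib.H45SmDefs

open Module QuadraticMap

universe u w

variable {F : Type u} [Field F] {V : Type w} [AddCommGroup V] [Module F V]

/-- the isometry group of a quadratic form, inside the group of linear automorphisms. -/
def OG (Q : QuadraticForm F V) : Subgroup (V ≃ₗ[F] V) where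
  carrier := {g | ∀ v, Q (g v) = Q v}
  mul_mem' := by
    intro a b ha hb v
    rw [LinearEquiv.mul_apply, ha, hb]
  one_mem' := fun _ => rfl
  inv_mem' := by
    intro a ha v
    have h := ha (a⁻¹ v)
    rw [← LinearEquiv.mul_apply, mul_inv_cancel] at h
    exact h.symm

theorem mem_OG (Q : QuadraticForm F V) (g : V ≃ₗ[F] V) : g ∈ OG Q ↔ ∀ v, Q (g v) = Q v := Iff.rfl

/-- the isometries fixing `a` and acting trivially on `a^⊥ / ⟨a⟩`. -/
def Ea (Q : QuadraticForm F V) (a : V) : Subgroup (OG Q) where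
  carrier := {g | g.1 a = a ∧ ∀ x, polar Q a x = 0 → ∃ c : F, g.1 x = x + c • a}
  mul_mem' := by
    rintro g h ⟨hg1, hg2⟩ ⟨hh1, hh2⟩
    refine ⟨?_, fun x hx => ?_⟩
    · show g.1 (h.1 a) = a
      rw [hh1, hg1]
    · obtain ⟨c, hc⟩ := hh2 x hx
      obtain ⟨c', hc'⟩ := hg2 x hx
      refine ⟨c' + c, ?_⟩
      show g.1 (h.1 x) = _
      rw [hc, map_add, map_smul, hg1, hc', add_smul, add_assoc]
  one_mem' := ⟨rfl, fun x _ => ⟨0, by simp⟩⟩
  inv_mem' := by
    rintro g ⟨hg1, hg2⟩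
    have hinv : ∀ y, (g⁻¹).1 (g.1 y) = y := by
      intro y
      show (g.1⁻¹ * g.1) y = y
      rw [inv_mul_cancel]; rfl
    have ha : (g⁻¹).1 a = a := by
      conv_lhs => rw [← hg1]
      exact hinv a
    refine ⟨ha, fun x hx => ?_⟩
    obtain ⟨c, hc⟩ := hg2 x hx
    refine ⟨-c, ?_⟩
    have h1 := hinv x
    rw [hc, map_add, map_smul, ha] at h1
    rw [neg_smul]
    exact eq_add_neg_of_add_eq h1

theorem mem_Ea (Q : QuadraticForm F V) (a : V) (g : OG Q) :
    g ∈ Ea Q a ↔ g.1 a = a ∧ ∀ x, polar Q a x = 0 → ∃ c : F, g.1 x = x + c • a := Iff.rfl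

/-- maximal 2-subgroups. -/
def MaxP {G : Type*} [Group G] (H : Subgroup G) : Prop :=
  IsPGroup 2 H ∧ ∀ S : Subgroup G, IsPGroup 2 S → H ≤ S → S = H

/-- the Siegel transformation `x ↦ x + f(w,x) a + f(a,x) w + Q(w) f(a,x) a` (characteristic 2). -/
def siegL (Q : QuadraticForm F V) (a w : V) : End F V :=
  1 + (polarBilin Q w).smulRight a + (polarBilin Q a).smulRight w
    + (Q w) • (polarBilin Q a).smulRight a

theorem siegL_apply (Q : QuadraticForm F V) (a w x : V) :
    siegL Q a w x = x + polar Q w x • a + polar Q a x • w + (Q w * polar Q a x) • a := by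
  simp [siegL, mul_smul]

/-- `⟨a,b⟩^⊥`. -/
def Vp (Q : QuadraticForm F V) (a b : V) : Submodule F V :=
  LinearMap.ker (polarBilin Q a) ⊓ LinearMap.ker (polarBilin Q b)

theorem mem_Vp (Q : QuadraticForm F V) (a b x : V) :
    x ∈ Vp Q a b ↔ polar Q a x = 0 ∧ polar Q b x = 0 := Iff.rfl

/-- the restriction of `Q` to `⟨a,b⟩^⊥`. -/
def Qp (Q : QuadraticForm F V) (a b : V) : QuadraticForm F (Vp Q a b) :=
  Q.comp (Vp Q a b).subtype

theorem Qp_apply (Q : QuadraticForm F V) (a b : V) (x : Vp Q a b) : Qp Q a b x = Q (x : V) := rfl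

end Cfsg.Agent.Lib.H45SmDefs
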