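import Mathlib
import Cfsg.Agent.Lib.H45SmDefs


set_option autoImplicit false

namespace Cfsg.Agent.Lib.H45SmBase

open Module QuadraticMap Cfsg.Agent.Lib.Helper45OspDefs Cfsg.Agent.Lib.H45SmDefs

universe u w

theorem eq_zero_or_one' {F : Type u} [Field F] [Fintype F] (hF : Fintype.card F = 2) (c : F) :
    c = 0 ∨ c = 1 := by
  classical
  by_contra hcon
  push Not at hcon
  have h1 : ({0, 1, c} : Finset F).card = 3 := by
    rw [Finset.card_insert_of_notMem, Finset.card_insert_of_notMem, Finset.card_singleton]
    · simpa using hcon.2.symm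
    · simp only [Finset.mem_insert, Finset.mem_singleton, not_or]
      exact ⟨zero_ne_one, hcon.1.symm⟩
  have h2 := Finset.card_le_univ ({0, 1, c} : Finset F)
  rw [h1, hF] at h2
  omega

/-- piece `Base`. `|V| = 4` (`finrank = 2`, `|F| = 2`), `Q` has `2^1 + (2^1 - 2^0) = 3` zeros, so there is exactly one vector `n` with `Q n ≠ 0`; every isometry fixes `0` and `n` and permutes the two other vectors
`a, b` (`a + b = n`: the sum of all four vectors… or: `a + b ∉ {0,a,b}`), so `g^2 = 1` for all `g : OG Q` (`g (g x) = x` on the four vectors): the whole group is a 2-group, hence `H = ⊤ = K` by `MaxP` (apply `hH.2 ⊤`).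
`OG Q ≠ 1`: the reflection `x ↦ x + f(n,x) n` (`Q n = 1`) is an isometry (`Q(x + f n) = Q x + f² + f² = Q x`), an involution, and moves `a` (`f(n,a) = f(a+b,a) = f(a,b) = Q(a+b) = 1`).
Alternative: `H45SqCls.isom_of_typ` identifies `Q` with `QP F 1` on `Fin 1 ⊕ Fin 1 → F` and everything is a finite check. -/
theorem base {F : Type u} [Field F] [Fintype F] [CharP F 2] {V : Type w} [AddCommGroup V]
    [Module F V] [Module.Finite F V] (hF : Fintype.card F = 2) (Q : QuadraticForm F V)
    (hT : Typ 1 1 Q) (H K : Subgroup (OG Q)) (hH : MaxP H) (hK : MaxP K) : H ⊓ K ≠ ⊥ := by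
  classical
  have h2 : (2 : F) = 0 := CharTwo.two_eq_zero
  haveI : Finite V := Module.finite_of_finite F
  haveI : Fintype V := Fintype.ofFinite V
  have hvv : ∀ v : V, v + v = 0 := fun v => by rw [← two_smul F v, h2, zero_smul]
  have hcV : Fintype.card V = 4 := by
    rw [Module.card_eq_pow_finrank (K := F) (V := V), hF, hT.2.2.1]
    norm_num
  -- a nonzero singular vector
  obtain ⟨a, ha0, hQa⟩ : ∃ a : V, a ≠ 0 ∧ Q a = 0 := by
    by_contra hcon
    push Not at hcon
    have h1 := hT.2.2.2
    have h3 : Nat.card {x : V // Q x = 0} ≤ 1 := by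
      rw [Finite.card_le_one_iff_subsingleton]
      constructor
      intro x y
      apply Subtype.ext
      have hx : x.1 = 0 := by
        by_contra h; exact hcon x.1 h x.2
      have hy : y.1 = 0 := by
        by_contra h; exact hcon y.1 h y.2
      rw [hx, hy]
    rw [hF] at h1
    have h4 : (Nat.card {x : V // Q x = 0} : ℤ) = 3 := by
      rw [h1]; norm_num
    have h5 : (Nat.card {x : V // Q x = 0} : ℤ) ≤ 1 := by exact_mod_cast h3
    omega
  obtain ⟨y, hy⟩ : ∃ y, polar Q a y ≠ 0 := by
    by_contra hcon
    push Not at hcon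
    exact ha0 (hT.2.1.1 a hcon)
  have hy1 : polar Q a y = 1 := (eq_zero_or_one' hF _).resolve_left hy
  have haa : polar Q a a = 0 := by rw [polar_self, hQa, smul_zero]
  obtain ⟨b, hQb, hab⟩ : ∃ b : V, Q b = 0 ∧ polar Q a b = 1 := by
    rcases eq_zero_or_one' hF (Q y) with h | h
    · exact ⟨y, h, hy1⟩
    · refine ⟨a + y, ?_, ?_⟩
      · rw [QuadraticMap.map_add Q, hQa, h, hy1]
        linear_combination h2
      · rw [polar_add_right, haa, hy1, zero_add]
  have hQab : Q (a + b) = 1 := by
    rw [QuadraticMap.map_add Q, hQa, hQb, hab]; ring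
  have hb0 : b ≠ 0 := by
    rintro rfl
    simp [polar] at hab
  have hne : a ≠ b := by
    rintro rfl
    rw [haa] at hab
    exact zero_ne_one hab
  have hab0 : a + b ≠ 0 := by
    intro h
    rw [h, map_zero] at hQab
    exact zero_ne_one hQab
  have hall : ∀ x : V, x = 0 ∨ x = a ∨ x = b ∨ x = a + b := by
    have h1 : ({0, a, b, a + b} : Finset V).card = 4 := by
      rw [Finset.card_insert_of_notMem, Finset.card_insert_of_notMem, Finset.card_insert_of_notMem,
        Finset.card_singleton]
      · simp only [Finset.mem_singleton]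
        intro h
        apply ha0
        have : a + b = 0 + b := by rw [zero_add]; exact h.symm
        exact add_right_cancel this
      · simp only [Finset.mem_insert, Finset.mem_singleton, not_or]
        refine ⟨hne, fun h => hb0 ?_⟩
        have : a + b = a + 0 := by rw [add_zero]; exact h.symm
        exact add_left_cancel this
      · simp only [Finset.mem_insert, Finset.mem_singleton, not_or]
        exact ⟨ha0.symm, hb0.symm, hab0.symm⟩
    have h3 : ({0, a, b, a + b} : Finset V) = Finset.univ :=
      Finset.eq_univ_of_card _ (by rw [h1, hcV])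
    intro x
    have := Finset.mem_univ x
    rw [← h3] at this
    simpa using this
  have hsing : ∀ x : V, x ≠ 0 → Q x = 0 → x = a ∨ x = b := by
    intro x hx0 hQx
    rcases hall x with h | h | h | h
    · exact absurd h hx0
    · exact Or.inl h
    · exact Or.inr h
    · rw [h, hQab] at hQx
      exact absurd hQx one_ne_zero
  have hsq : ∀ g : OG Q, g * g = 1 := by
    intro g
    have hg0 : ∀ x : V, x ≠ 0 → g.1 x ≠ 0 := fun x hx h =>
      hx ((LinearEquiv.map_eq_zero_iff g.1).1 h)
    have hga := hsing (g.1 a) (hg0 a ha0) (by rw [g.2, hQa])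
    have hgb := hsing (g.1 b) (hg0 b hb0) (by rw [g.2, hQb])
    have hinj : g.1 a ≠ g.1 b := fun h => hne (g.1.injective h)
    have h4 : g.1 (g.1 a) = a ∧ g.1 (g.1 b) = b := by
      rcases hga with h5 | h5 <;> rcases hgb with h6 | h6
      · exact absurd (h5.trans h6.symm) hinj
      · rw [h5, h6, h5, h6]; exact ⟨rfl, rfl⟩
      · rw [h5, h6, h5]; exact ⟨rfl, rfl⟩
      · exact absurd (h5.trans h6.symm) hinj
    apply Subtype.ext
    apply LinearEquiv.ext
    intro x
    show g.1 (g.1 x) = x
    rcases hall x with h | h | h | h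
    · rw [h, map_zero, map_zero]
    · rw [h, h4.1]
    · rw [h, h4.2]
    · rw [h, map_add, map_add, h4.1, h4.2]
  have hP : IsPGroup 2 (⊤ : Subgroup (OG Q)) := by
    intro g
    refine ⟨1, ?_⟩
    apply Subtype.ext
    rw [pow_one, pow_two]
    exact hsq g.1
  have hHt : H = ⊤ := (hH.2 ⊤ hP le_top).symm
  have hKt : K = ⊤ := (hK.2 ⊤ hP le_top).symm
  rw [hHt, hKt, inf_idem]
  -- the reflection
  have hnn : polar Q (a + b) (a + b) = 0 := by
    rw [polar_self, hQab, two_nsmul]
    linear_combination h2
  let s : End F V := 1 + (polarBilin Q (a + b)).smulRight (a + b)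
  have hs : ∀ x, s x = x + polar Q (a + b) x • (a + b) := fun x => by simp [s]
  have hsQ : ∀ x, Q (s x) = Q x := by
    intro x
    rw [hs, QuadraticMap.map_add Q, QuadraticMap.map_smul, polar_smul_right, hQab,
      polar_comm Q x (a + b)]
    simp only [smul_eq_mul]
    linear_combination (polar Q (a + b) x * polar Q (a + b) x) * h2
  have hsinv : Function.Involutive s := by
    intro x
    rw [hs (s x), hs x, polar_add_right, polar_smul_right, hnn, smul_zero, add_zero, add_assoc, hvv,
      add_zero]
  intro hbot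
  have hmem : (⟨LinearEquiv.ofInvolutive s hsinv, hsQ⟩ : OG Q) ∈ (⊤ : Subgroup (OG Q)) :=
    Subgroup.mem_top _
  rw [hbot, Subgroup.mem_bot] at hmem
  have h5 : s a = a := by
    have := congrArg (fun g : OG Q => g.1 a) hmem
    exact this
  rw [hs, polar_add_left, haa, polar_comm Q b a, hab, zero_add, one_smul] at h5
  apply hab0
  have : a + (a + b) = a + 0 := by rw [add_zero]; exact h5
  exact add_left_cancel this

end Cfsg.Agent.Lib.H45SmBase
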