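import Mathlib
import Cfsg.Agent.Lib.H45SmDefs


set_option autoImplicit false

namespace Cfsg.Agent.Lib.H45SmSieg

open Module QuadraticMap Cfsg.Agent.Lib.Helper45OspDefs Cfsg.Agent.Lib.H45SmDefs

universe u w

theorem Q_add3 {F : Type u} [Field F] {V : Type w} [AddCommGroup V] [Module F V]
    (Q : QuadraticForm F V) (x a w : V) (l m : F) :
    Q (x + l • a + m • w) = Q x + l * l * Q a + m * m * Q w + l * polar Q x a + m * polar Q x w
      + l * m * polar Q a w := by
  rw [QuadraticMap.map_add Q, QuadraticMap.map_add Q, QuadraticMap.map_smul, QuadraticMap.map_smul,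
    polar_add_left, polar_smul_right, polar_smul_right, polar_smul_left, polar_smul_right]
  simp only [smul_eq_mul]
  ring

/-- piece `Sieg`. `s = siegL Q a w`, `f = polar Q`, `f(a,a) = f(w,w) = 0` (char 2: `polar_self`, `two_smul`), `f(a,w) = f(w,a) = 0`, `Q a = 0`.
With `siegL_apply`: `s x = x + (f(w,x) + Q w f(a,x)) a + f(a,x) w`.
* `Q (s x) = Q x`: expand with `QuadraticMap.map_add`/`polar_add_left`… : `Q(x + λ a + μ w) = Q x + μ² Q w + λ f(x,a) + μ f(x,w)` with `λ = f(w,x) + Q w f(a,x)`, `μ = f(a,x)`:
  `= Q x + μ² Q w + f(w,x) μ + Q w μ² + μ f(x,w) = Q x` (char 2). (A convenient route: `Q (u + v) = Q u + Q v + polar Q u v`, `QuadraticMap.map_smul`, `polar_smul_left/right`, `polar_comm`, then `linear_combination` with `(2:F) = 0`.)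
* `s (s x) = x`: `f(a, s x) = f(a,x)`, `f(w, s x) = f(w,x)`, so `s (s x) = x + 2(…) = x`.
* `g := LinearEquiv.ofInvolutive s _` (or `LinearEquiv.ofLinear s s`), in `OG Q`.
* `g ∈ Ea Q a`: `s a = a`; if `f(a,x) = 0` then `s x = x + f(w,x) a`. -/
theorem exists_sieg {F : Type u} [Field F] [CharP F 2] {V : Type w} [AddCommGroup V] [Module F V]
    (Q : QuadraticForm F V) (a w : V) (hQa : Q a = 0) (haw : polar Q a w = 0) :
    ∃ g : OG Q, (∀ x, g.1 x = siegL Q a w x) ∧ g ∈ Ea Q a := by
  have h2 : (2 : F) = 0 := CharTwo.two_eq_zero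
  have hwa : polar Q w a = 0 := by rw [polar_comm]; exact haw
  have haa : polar Q a a = 0 := by rw [polar_self, hQa, smul_zero]
  have hww : polar Q w w = 0 := by
    rw [polar_self, two_nsmul, ← two_mul, h2, zero_mul]
  have form : ∀ x, siegL Q a w x
      = x + (polar Q w x + Q w * polar Q a x) • a + polar Q a x • w := by
    intro x
    rw [siegL_apply, add_smul]
    abel
  have hQ : ∀ x, Q (siegL Q a w x) = Q x := by
    intro x
    rw [form, Q_add3, hQa, haw, polar_comm Q x a, polar_comm Q x w]
    linear_combination (polar Q a x * polar Q w x + Q w * polar Q a x ^ 2) * h2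
  have hfa : ∀ x, polar Q a (siegL Q a w x) = polar Q a x := by
    intro x
    rw [form, polar_add_right, polar_add_right, polar_smul_right, polar_smul_right, haa, haw]
    simp
  have hfw : ∀ x, polar Q w (siegL Q a w x) = polar Q w x := by
    intro x
    rw [form, polar_add_right, polar_add_right, polar_smul_right, polar_smul_right, hwa, hww]
    simp
  have hvv : ∀ v : V, v + v = 0 := fun v => by rw [← two_smul F v, h2, zero_smul]
  have hinv : Function.Involutive (siegL Q a w) := by
    intro x
    rw [form (siegL Q a w x), hfa, hfw, form x]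
    calc _ = x + ((polar Q w x + Q w * polar Q a x) • a + (polar Q w x + Q w * polar Q a x) • a)
          + (polar Q a x • w + polar Q a x • w) := by abel
      _ = x := by rw [hvv, hvv]; simp
  refine ⟨⟨LinearEquiv.ofInvolutive (siegL Q a w) hinv, hQ⟩, fun x => rfl, ?_, ?_⟩
  · show siegL Q a w a = a
    rw [form, hwa, haa]
    simp
  · intro x hx
    refine ⟨polar Q w x, ?_⟩
    show siegL Q a w x = _
    rw [form, hx]
    simp

end Cfsg.Agent.Lib.H45SmSieg
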