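import Mathlib
import Cfsg.Agent.Lib.H45SmDefs
import Cfsg.Agent.Lib.H45SmSieg

set_option autoImplicit false

namespace Cfsg.Agent.Lib.H45SmCommon

open Module QuadraticMap Cfsg.Agent.Lib.Helper45OspDefs Cfsg.Agent.Lib.H45SmDefs

universe u w

theorem eq_zero_or_one {F : Type u} [Field F] [Fintype F] (hF : Fintype.card F = 2) (c : F) :
    c = 0 ∨ c = 1 := by
  classical
  by_contra hcon
  push Not at hcon
  have h1 : ({0, 1, c} : Finset F).card = 3 := by
    rw [Finset.card_insert_of_notMem, Finset.card_insert_of_notMem, Finset.card_singleton]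
    · simpa using hcon.2.symm
    · simp only [Finset.mem_insert, Finset.mem_singleton, not_or]
      exact ⟨zero_ne_one, hcon.1.symm⟩
  have h2 := Finset.card_le_univ ({0, 1, c} : Finset F)
  rw [h1, hF] at h2
  omega

/-- piece `Common`. `f = polar Q`.
Case `a ≠ b`: `g` from `exists_sieg Q a b`. By `siegL_apply` and `Q b = 0`: `g x = x + f(b,x) a + f(a,x) b`, symmetric in `a,b`, so `g` also satisfies the definition of `Ea Q b`
(`g b = b`; `f(b,x) = 0 ⇒ g x = x + f(a,x) b`). `g ≠ 1`: pick `x` with `f(a,x) ≠ 0` (nondegenerate, `Helper42Quad.nondeg_iff`), so `f(a,x) = 1` (`|F| = 2`); `g x = x` would give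
`f(b,x) a + b = 0`, i.e. `b = 0` or `b = a` (`f(b,x) ∈ {0,1}`, char 2).
Case `a = b`: choose `w` with `f(a,w) = 0`, `w ∉ {0, a}`: `ker f(a,·)` has dimension `≥ finrank V - 1 ≥ 3` (`LinearMap.finrank_range_add_finrank_ker`), hence more than 2 elements
(or: it is not contained in `span {a}` of dimension ≤ 1). `g` from `exists_sieg Q a w`; `g ≠ 1`: `x` with `f(a,x) = 1`: `g x - x = w + (…) a ≠ 0`. -/
theorem common {F : Type u} [Field F] [Fintype F] [CharP F 2] {V : Type w} [AddCommGroup V]
    [Module F V] [Module.Finite F V] (hF : Fintype.card F = 2) (Q : QuadraticForm F V)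
    (hnd : (polarBilin Q).Nondegenerate) (hdim : 4 ≤ finrank F V) (a b : V) (ha0 : a ≠ 0)
    (hb0 : b ≠ 0) (hQa : Q a = 0) (hQb : Q b = 0) (hab : polar Q a b = 0) :
    ∃ g : OG Q, g ≠ 1 ∧ g ∈ Ea Q a ∧ g ∈ Ea Q b := by
  have h2 : (2 : F) = 0 := CharTwo.two_eq_zero
  obtain ⟨x, hx⟩ : ∃ x, polar Q a x ≠ 0 := by
    by_contra hcon
    push Not at hcon
    exact ha0 (hnd.1 a hcon)
  by_cases hne : a = b
  · subst hne
    -- a vector of the kernel outside the line
    have hker : ¬ LinearMap.ker (polarBilin Q a) ≤ Submodule.span F {a} := by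
      intro hle
      have h1 := Submodule.finrank_mono hle
      have h3 : finrank F (Submodule.span F {a}) ≤ 1 := by
        have := finrank_span_le_card (R := F) ({a} : Set V)
        simpa using this
      have h4 := LinearMap.finrank_range_add_finrank_ker (polarBilin Q a)
      have h5 : finrank F (LinearMap.range (polarBilin Q a)) ≤ 1 := by
        have := Submodule.finrank_le (LinearMap.range (polarBilin Q a))
        simpa using this
      omega
    obtain ⟨w, hw, hwa⟩ := SetLike.not_le_iff_exists.1 hker
    have haw : polar Q a w = 0 := hw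
    obtain ⟨g, hg, hgE⟩ := Cfsg.Agent.Lib.H45SmSieg.exists_sieg Q a w hQa haw
    refine ⟨g, ?_, hgE, hgE⟩
    intro h1
    apply hwa
    have h3 := hg x
    rw [h1, siegL_apply] at h3
    have h4 : x = x + polar Q w x • a + polar Q a x • w + (Q w * polar Q a x) • a := h3
    have h5 : polar Q a x • w = -(polar Q w x + Q w * polar Q a x) • a := by
      have h6 : (0 : V) = polar Q w x • a + polar Q a x • w + (Q w * polar Q a x) • a := by
        have := congrArg (fun v => v - x) h4
        simp only [sub_self] at this
        rw [this]; abel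
      rw [neg_smul, add_smul, eq_neg_iff_add_eq_zero, h6]
      abel
    have h7 : w = (polar Q a x)⁻¹ • (-(polar Q w x + Q w * polar Q a x) • a) := by
      rw [← h5, smul_smul, inv_mul_cancel₀ hx, one_smul]
    rw [h7]
    exact Submodule.smul_mem _ _ (Submodule.smul_mem _ _ (Submodule.mem_span_singleton_self a))
  · obtain ⟨g, hg, hgE⟩ := Cfsg.Agent.Lib.H45SmSieg.exists_sieg Q a b hQa hab
    have form : ∀ y, g.1 y = y + polar Q b y • a + polar Q a y • b := by
      intro y
      rw [hg, siegL_apply, hQb]
      simp
    have hbb : polar Q b b = 0 := by rw [polar_self, hQb, smul_zero]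
    refine ⟨g, ?_, hgE, ?_, ?_⟩
    · intro h1
      have h3 := form x
      rw [h1] at h3
      have h4 : x = x + polar Q b x • a + polar Q a x • b := h3
      have h6 : polar Q b x • a + polar Q a x • b = 0 := by
        have := congrArg (fun v => v - x) h4
        simp only [sub_self] at this
        rw [this]; abel
      have h7 : polar Q a x = 1 := (eq_zero_or_one hF _).resolve_left hx
      rw [h7, one_smul] at h6
      rcases eq_zero_or_one hF (polar Q b x) with h8 | h8
      · rw [h8, zero_smul, zero_add] at h6
        exact hb0 h6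
      · rw [h8, one_smul] at h6
        apply hne
        have h9 : b + b = 0 := by rw [← two_smul F b, h2, zero_smul]
        calc a = a + (b + b) := by rw [h9, add_zero]
          _ = (a + b) + b := by abel
          _ = b := by rw [h6, zero_add]
    · rw [form, hbb, hab]
      simp
    · intro y hy
      refine ⟨polar Q a y, ?_⟩
      rw [form, hy]
      simp

end Cfsg.Agent.Lib.H45SmCommon
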