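import Mathlib
import Cfsg.Prelude.Def_GeometricClasses
import Cfsg.Prelude.Def_ClassicalGeometry
import Cfsg.Agent.Lib.Helper45OspDefs

/-!
PROJECT 5983 (SQ): elements of prime order of `Sp_{2d}(q)`, `q` even, on the cosets of `O^±_{2d}(q)` (S5983).
Vocabulary.
-/

set_option autoImplicit false

namespace Cfsg.Agent.Lib.H45SqDefs

open Module QuadraticMap Cfsg.Agent.Lib.Helper45OspDefs

universe u w

section
variable {F : Type u} [Field F] {W : Type w} [AddCommGroup W] [Module F W]

/-- `Q'` has the same polar form as `Q`. -/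
def SP (Q Q' : QuadraticForm F W) : Prop := ∀ u v, polar Q' u v = polar Q u v

/-- `X` preserves the polar form of `Q`. -/
def PIso (Q : QuadraticForm F W) (X : End F W) : Prop := ∀ u v, polar Q (X u) (X v) = polar Q u v

/-- `X` preserves `Q`. -/
def QIso (Q : QuadraticForm F W) (X : End F W) : Prop := ∀ v, Q (X v) = Q v

/-- `X` preserves a quadratic form with the polar form of `Q` which is isometric to `Q`. -/
def Fx (Q : QuadraticForm F W) (X : End F W) : Prop :=
  ∃ Q' : QuadraticForm F W, SP Q Q' ∧ QIso Q' X ∧ Cfsg.Agent.Lib.Helper48QuadType.Isom Q Q'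

/-- every quadratic form with the polar form of `Q` preserved by `X` vanishes on a subspace of
dimension `m`. -/
def FP (Q : QuadraticForm F W) (m : ℕ) (X : End F W) : Prop :=
  ∀ Q' : QuadraticForm F W, SP Q Q' → QIso Q' X →
    ∃ U : Submodule F W, finrank F U = m ∧ ∀ u ∈ U, Q' u = 0

/-- the twisted form `v ↦ Q v + f(a,v)^2` (`f` the polar form of `Q`). -/
def tw (Q : QuadraticForm F W) (a : W) : QuadraticForm F W :=
  Q + QuadraticMap.linMulLin (polarBilin Q a) (polarBilin Q a)

end

/-- a `Model` whose cyclic group `⟨h⟩` acts semiregularly on the nonzero vectors. -/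
def ModelS (F : Type u) [Field F] [Fintype F] (M : ℕ) (ε : ℤ) (m : ℕ) : Prop :=
  ∃ (W : Type w) (_ : AddCommGroup W) (_ : Module F W) (_ : Module.Finite F W)
    (Q : QuadraticForm F W) (h : End F W),
    Typ ε m Q ∧ (∀ x, Q (h x) = Q x) ∧ (∀ j : ℕ, h ^ j = 1 ↔ M ∣ j) ∧
      ∀ (j : ℕ) (x : W), (h ^ j) x = x → x = 0 ∨ h ^ j = 1

end Cfsg.Agent.Lib.H45SqDefs
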