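import Mathlib
import Cfsg.Agent.Lib.H45SqDefs
import Cfsg.Agent.Lib.Helper95SpStd

set_option autoImplicit false

namespace Cfsg.Agent.Lib.H45SqScal

open Module QuadraticMap Cfsg.Agent.Lib.Helper45OspDefs Cfsg.Agent.Lib.H45SqDefs

universe u w

variable {F : Type u} [Field F]

/-- a pair of vectors with `sympForm = 1` -/
theorem symp_single (d : ℕ) (i : Fin d) :
    Cfsg.sympForm d F (Pi.single (Sum.inr i) 1) (Pi.single (Sum.inl i) 1) = 1 := by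
  classical
  rw [Cfsg.Agent.Lib.Helper95SpStd.sympForm_eq]
  simp [Pi.single_apply]

/-- piece `Scal` (a) -/
theorem piso_iff (d : ℕ) (Q₀ : QuadraticForm F (Fin d ⊕ Fin d → F))
    (hpol : ∀ u v, polar Q₀ u v = Cfsg.sympForm d F u v)
    (x : Matrix.GeneralLinearGroup (Fin d ⊕ Fin d) F) :
    x ∈ Cfsg.spGL d F ↔ PIso Q₀ (Matrix.toLin' (x : Matrix (Fin d ⊕ Fin d) (Fin d ⊕ Fin d) F)) := by
  rw [Cfsg.Agent.Lib.Helper95SpStd.mem_spGL_iff]
  unfold PIso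
  simp only [hpol, Matrix.toLin'_apply]

/-- piece `Scal` (b) -/
theorem exists_gl (d : ℕ) (X : End F (Fin d ⊕ Fin d → F)) (r : ℕ) (hr : 1 ≤ r) (hX : X ^ r = 1) :
    ∃ x : Matrix.GeneralLinearGroup (Fin d ⊕ Fin d) F,
      Matrix.toLin' (x : Matrix (Fin d ⊕ Fin d) (Fin d ⊕ Fin d) F) = X ∧ x ^ r = 1 := by
  set M := LinearMap.toMatrix' X with hM
  have hMr : M ^ r = 1 := by
    have : M ^ r = LinearMap.toMatrixAlgEquiv' (X ^ r) := by
      rw [map_pow]; rfl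
    rw [this, hX, map_one]
  obtain ⟨k, rfl⟩ : ∃ k, r = k + 1 := ⟨r - 1, by omega⟩
  refine ⟨⟨M, M ^ k, ?_, ?_⟩, ?_, ?_⟩
  · rw [← pow_succ', hMr]
  · rw [← pow_succ, hMr]
  · show Matrix.toLin' M = X
    rw [hM, Matrix.toLin'_toMatrix']
  · apply Units.ext
    rw [Units.val_pow_eq_pow_val]
    exact hMr

/-- piece `Scal` (c) -/
theorem scalar_eq_one [CharP F 2] (d : ℕ) (hd : 1 ≤ d)
    (y : Matrix.GeneralLinearGroup (Fin d ⊕ Fin d) F) (hy : y ∈ Cfsg.spGL d F) (z : F)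
    (hz : (y : Matrix (Fin d ⊕ Fin d) (Fin d ⊕ Fin d) F) = z • 1) : y = 1 := by
  have h := (Cfsg.Agent.Lib.Helper95SpStd.mem_spGL_iff d y).1 hy
    (Pi.single (Sum.inr ⟨0, hd⟩) 1) (Pi.single (Sum.inl ⟨0, hd⟩) 1)
  rw [hz, Matrix.smul_mulVec, Matrix.smul_mulVec, Matrix.one_mulVec, Matrix.one_mulVec,
    (Cfsg.Agent.Lib.Helper95SpStd.sympForm_isSymplectic d).bilinear.smul_left,
    (Cfsg.Agent.Lib.Helper95SpStd.sympForm_isSymplectic d).bilinear.smul_right, symp_single] at h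
  have h1 : (z + 1) ^ 2 = 0 := by
    have h3 : z ^ 2 = 1 := by linear_combination h
    rw [CharTwo.add_sq, h3, one_pow]
    exact CharTwo.add_self_eq_zero (1 : F)
  have h2 : z = 1 := CharTwo.add_eq_zero.1 (pow_eq_zero_iff two_ne_zero |>.1 h1)
  apply Units.ext
  rw [hz, h2, one_smul]
  rfl

end Cfsg.Agent.Lib.H45SqScal
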