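import Mathlib
import Cfsg.Agent.Lib.H45SqDefs
import Cfsg.Agent.Lib.H45SqScal

set_option autoImplicit false

namespace Cfsg.Agent.Lib.H45SqInf

open Module QuadraticMap Cfsg.Agent.Lib.Helper45OspDefs Cfsg.Agent.Lib.H45SqDefs

universe u w

theorem mem_iso_iff {F : Type u} [Field F] {ι : Type} [Fintype ι] [DecidableEq ι]
    (Q : (ι → F) → F) (g : Matrix.GeneralLinearGroup ι F) :
    g ∈ Cfsg.isometryGroup F Q ↔ ∀ v, Q ((g : Matrix ι ι F).mulVec v) = Q v := by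
  constructor
  · intro h v
    exact h v v
  · intro h u _
    exact h u

/-- piece `Inf`. -/
theorem inf_eq {F : Type u} [Field F] (d : ℕ) (hd : 1 ≤ d)
    (Q₀ : QuadraticForm F (Fin d ⊕ Fin d → F))
    (hpol : ∀ u v, polar Q₀ u v = Cfsg.sympForm d F u v) :
    Cfsg.Geo.quadSimilarityGroup (⇑Q₀) ⊓ Cfsg.spGL d F = Cfsg.isometryGroup F (⇑Q₀) := by
  ext g
  rw [Subgroup.mem_inf, mem_iso_iff]
  constructor
  · rintro ⟨⟨c, hc⟩, hg⟩
    have h1 := (Cfsg.Agent.Lib.Helper95SpStd.mem_spGL_iff d g).1 hg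
      (Pi.single (Sum.inr ⟨0, hd⟩) 1) (Pi.single (Sum.inl ⟨0, hd⟩) 1)
    rw [H45SqScal.symp_single, ← hpol] at h1
    unfold polar at h1
    rw [← Matrix.mulVec_add, hc, hc, hc] at h1
    have h2 : (c : F) * polar Q₀ (Pi.single (Sum.inr ⟨0, hd⟩) 1) (Pi.single (Sum.inl ⟨0, hd⟩) 1) = 1 := by
      unfold polar
      linear_combination h1
    rw [hpol, H45SqScal.symp_single, mul_one] at h2
    intro v
    rw [hc, h2, one_mul]
  · intro h
    refine ⟨⟨1, fun v => by rw [h, Units.val_one, one_mul]⟩, ?_⟩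
    rw [Cfsg.Agent.Lib.Helper95SpStd.mem_spGL_iff]
    intro u v
    rw [← hpol, ← hpol]
    unfold polar
    rw [← Matrix.mulVec_add, h, h, h]

end Cfsg.Agent.Lib.H45SqInf
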