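import Mathlib
import Cfsg.Agent.Lib.H45SmDefs
import Cfsg.Agent.Lib.Helper7OPlus
import Cfsg.Agent.Lib.Helper95Basic
import Cfsg.Agent.Lib.H45SqInf

set_option autoImplicit false

namespace Cfsg.Agent.Lib.H45SmConc

open Module QuadraticMap Cfsg.Agent.Lib.Helper45OspDefs Cfsg.Agent.Lib.H45SmDefs

universe u w

/-- piece `Conc`. `Helper95Basic.glEquiv ι F : GL ι F ≃* ((ι → F) ≃ₗ[F] (ι → F))`, `glEquiv_apply : glEquiv ι F g x = g *ᵥ x`. It maps the subgroup `isometryGroup F (quadFormPlus m F)`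
(`g ∈ isometryGroup F Q ↔ ∀ v, Q (g *ᵥ v) = Q v`: `H45SqInf.mem_iso_iff`) onto `OG (QP F m)` (`Helper7OPlus.QP_apply m v : QP F m v = quadFormPlus m F v`):
`MulEquiv.subgroupMap`/`Subgroup.equivMapOfInjective` + `MulEquiv.subgroupCongr`, or build the `MulEquiv` by hand with `Subtype`s. -/
theorem exists_equiv {F : Type u} [Field F] (m : ℕ) :
    Nonempty (Cfsg.isometryGroup F (Cfsg.quadFormPlus m F) ≃*
      OG (Cfsg.Agent.Lib.Helper7OPlus.QP F m)) := by
  have key : ∀ g : Matrix.GeneralLinearGroup (Fin m ⊕ Fin m) F,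
      g ∈ Cfsg.isometryGroup F (Cfsg.quadFormPlus m F) ↔
        Cfsg.Agent.Lib.Helper95Basic.glEquiv (Fin m ⊕ Fin m) F g ∈
          OG (Cfsg.Agent.Lib.Helper7OPlus.QP F m) := by
    intro g
    rw [Cfsg.Agent.Lib.H45SqInf.mem_iso_iff, mem_OG]
    simp only [Cfsg.Agent.Lib.Helper7OPlus.QP_apply, Cfsg.Agent.Lib.Helper95Basic.glEquiv_apply]
  have hmap : (Cfsg.isometryGroup F (Cfsg.quadFormPlus m F)).map
      (Cfsg.Agent.Lib.Helper95Basic.glEquiv (Fin m ⊕ Fin m) F).toMonoidHom =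
        OG (Cfsg.Agent.Lib.Helper7OPlus.QP F m) := by
    ext e
    constructor
    · rintro ⟨g, hg, rfl⟩
      exact (key g).1 hg
    · intro he
      refine ⟨(Cfsg.Agent.Lib.Helper95Basic.glEquiv (Fin m ⊕ Fin m) F).symm e, ?_, ?_⟩
      · apply (key _).2
        rw [MulEquiv.apply_symm_apply]
        exact he
      · exact MulEquiv.apply_symm_apply _ e
  exact ⟨((Cfsg.Agent.Lib.Helper95Basic.glEquiv (Fin m ⊕ Fin m) F).subgroupMap _).trans
    (MulEquiv.subgroupCongr hmap)⟩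

end Cfsg.Agent.Lib.H45SmConc
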