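import Mathlib
import Cfsg.Agent.Lib.H45SmDefs


set_option autoImplicit false

namespace Cfsg.Agent.Lib.H45SmEaN

open Module QuadraticMap Cfsg.Agent.Lib.Helper45OspDefs Cfsg.Agent.Lib.H45SmDefs

universe u w

/-- piece `EaN`. `h e h⁻¹ a = h e a = h a = a` (`h⁻¹ a = a`). If `f(a,x) = 0` then `f(a, h⁻¹ x) = f(h a, h h⁻¹ x) = f(a,x) = 0`
(`h` preserves `polar Q`), so `e (h⁻¹ x) = h⁻¹ x + c • a` and `h e h⁻¹ x = x + c • a`. -/
theorem conj_mem {F : Type u} [Field F] {V : Type w} [AddCommGroup V] [Module F V]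
    (Q : QuadraticForm F V) (a : V) (h : OG Q) (ha : h.1 a = a) (e : OG Q) (he : e ∈ Ea Q a) :
    h * e * h⁻¹ ∈ Ea Q a := by
  have hpol : ∀ x y, polar Q (h.1 x) (h.1 y) = polar Q x y := by
    intro x y
    have hh := (mem_OG Q h.1).1 h.2
    unfold polar
    rw [← map_add, hh, hh, hh]
  have hinv : ∀ y, h.1 ((h⁻¹).1 y) = y := by
    intro y
    show (h * h⁻¹).1 y = y
    rw [mul_inv_cancel]; rfl
  have hinv' : ∀ y, (h⁻¹).1 (h.1 y) = y := by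
    intro y
    show (h⁻¹ * h).1 y = y
    rw [inv_mul_cancel]; rfl
  have ha' : (h⁻¹).1 a = a := by
    conv_lhs => rw [← ha]
    exact hinv' a
  obtain ⟨he1, he2⟩ := (mem_Ea Q a e).1 he
  rw [mem_Ea]
  refine ⟨?_, fun x hx => ?_⟩
  · show h.1 (e.1 ((h⁻¹).1 a)) = a
    rw [ha', he1, ha]
  · have h1 : polar Q a ((h⁻¹).1 x) = 0 := by
      rw [← hpol, ha, hinv, hx]
    obtain ⟨c, hc⟩ := he2 _ h1
    refine ⟨c, ?_⟩
    show h.1 (e.1 ((h⁻¹).1 x)) = _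
    rw [hc, map_add, map_smul, hinv, ha]

end Cfsg.Agent.Lib.H45SmEaN
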