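import Mathlib
import Cfsg.Agent.Lib.H45SmDefs
import Cfsg.Agent.Lib.Helper45OspPowTwo

set_option autoImplicit false

namespace Cfsg.Agent.Lib.H45SmEaP

open Module QuadraticMap Cfsg.Agent.Lib.Helper45OspDefs Cfsg.Agent.Lib.H45SmDefs

universe u w

theorem pow_coe {F : Type u} [Field F] {V : Type w} [AddCommGroup V] [Module F V]
    (g : V ≃ₗ[F] V) (n : ℕ) (x : V) : (g ^ n) x = ((g.toLinearMap : End F V) ^ n) x := by
  induction n generalizing x with
  | zero => rfl
  | succ n ih =>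
    rw [pow_succ, pow_succ, LinearEquiv.mul_apply, ih, Module.End.mul_apply]
    rfl

/-- piece `EaP`. For `g ∈ Ea Q a` put `y = (g.1 : V →ₗ V)` (`LinearEquiv.toLinearMap`), `N = y - 1`. `f = polar Q`.
* `f(a, N x) = f(a, g x) - f(a,x) = f(g a, g x) - f(a,x) = 0` (`g` preserves `Q` hence `polar Q`: unfold `polar`, `map_add`);
* so `N (N x) = c • a` for some `c` (second clause of `mem_Ea`), and `N a = 0`: `N^3 = 0`;
* `Helper45OspPowTwo.pow_two y 3 2 (by norm_num) _ : y^(2^2) = 1`, hence `g^4 = 1` (`Subtype.ext`, `LinearEquiv.ext`; `((g^4).1 : V → V) x = (y^4) x` by `rfl`/`simp [pow_succ]`).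
`IsPGroup 2` unfolds to `∀ g, ∃ k, g ^ 2 ^ k = 1`. -/
theorem isPGroup_Ea {F : Type u} [Field F] [CharP F 2] {V : Type w} [AddCommGroup V] [Module F V]
    (Q : QuadraticForm F V) (a : V) : IsPGroup 2 (Ea Q a) := by
  rintro ⟨g, hg⟩
  obtain ⟨hg1, hg2⟩ := (mem_Ea Q a g).1 hg
  refine ⟨2, ?_⟩
  have hpol : ∀ x y, polar Q (g.1 x) (g.1 y) = polar Q x y := by
    intro x y
    have hh := (mem_OG Q g.1).1 g.2
    unfold polar
    rw [← map_add, hh, hh, hh]
  set y : End F V := g.1.toLinearMap with hy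
  have hyx : ∀ x, y x = g.1 x := fun _ => rfl
  have hN : ∀ x, (y - 1) x = g.1 x - x := fun _ => rfl
  have h3 : (y - 1) ^ 3 = 0 := by
    ext x
    rw [pow_succ, pow_succ, pow_one, Module.End.mul_apply, Module.End.mul_apply]
    have h1 : polar Q a ((y - 1) x) = 0 := by
      rw [hN, polar_sub_right]
      conv_lhs => rw [← hg1]
      rw [hpol, hg1, sub_self]
    obtain ⟨c, hc⟩ := hg2 _ h1
    have h2 : (y - 1) ((y - 1) x) = c • a := by
      rw [hN ((y - 1) x), hc, add_sub_cancel_left]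
    rw [h2, map_smul, hN, hg1, sub_self, smul_zero]
    rfl
  have h4 := Cfsg.Agent.Lib.Helper45OspPowTwo.pow_two y 3 2 (by norm_num) h3
  apply Subtype.ext
  apply Subtype.ext
  apply LinearEquiv.ext
  intro x
  show (g.1 ^ 2 ^ 2) x = x
  rw [pow_coe, ← hy, h4]
  rfl

end Cfsg.Agent.Lib.H45SmEaP
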