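import Mathlib
import Cfsg.Agent.Lib.H45SmDefs
import Cfsg.Agent.Lib.H45SmEaP
import Cfsg.Agent.Lib.H45SmEaN

set_option autoImplicit false

namespace Cfsg.Agent.Lib.H45SmEaLe

open Module QuadraticMap Cfsg.Agent.Lib.Helper45OspDefs Cfsg.Agent.Lib.H45SmDefs

universe u w

/-- piece `EaLe` (a) (group theory). `S ≤ (Ea Q a).normalizer` (`Subgroup.mem_normalizer_iff`: `e ∈ E ↔ h e h⁻¹ ∈ E`; use `conj_mem` for `h` and for `h⁻¹`, which also fixes `a`),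
so `IsPGroup.to_sup_of_normal_right'` (`hS`, `isPGroup_Ea`). -/
theorem isPGroup_sup {F : Type u} [Field F] [CharP F 2] {V : Type w} [AddCommGroup V] [Module F V]
    (Q : QuadraticForm F V) (a : V) (S : Subgroup (OG Q)) (hS : IsPGroup 2 S)
    (hSa : ∀ h ∈ S, h.1 a = a) : IsPGroup 2 (S ⊔ Ea Q a : Subgroup (OG Q)) := by
  apply IsPGroup.to_sup_of_normal_right' hS (Cfsg.Agent.Lib.H45SmEaP.isPGroup_Ea Q a)
  intro h hh
  rw [Subgroup.mem_normalizer_iff]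
  intro e
  constructor
  · intro he
    exact Cfsg.Agent.Lib.H45SmEaN.conj_mem Q a h (hSa h hh) e he
  · intro he
    have h1 := Cfsg.Agent.Lib.H45SmEaN.conj_mem Q a h⁻¹ (hSa _ (S.inv_mem hh)) _ he
    have h2 : h⁻¹ * (h * e * h⁻¹) * h⁻¹⁻¹ = e := by group
    rwa [h2] at h1

/-- piece `EaLe` (b). `H ⊔ Ea Q a` is a 2-group containing `H`, so it equals `H` (`hH.2`), and `Ea Q a ≤ H ⊔ Ea Q a`. -/
theorem Ea_le {F : Type u} [Field F] [CharP F 2] {V : Type w} [AddCommGroup V] [Module F V]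
    (Q : QuadraticForm F V) (a : V) (H : Subgroup (OG Q)) (hH : MaxP H)
    (hHa : ∀ h ∈ H, h.1 a = a) : Ea Q a ≤ H := by
  have h1 := hH.2 _ (isPGroup_sup Q a H hH.1 hHa) le_sup_left
  calc Ea Q a ≤ H ⊔ Ea Q a := le_sup_right
    _ = H := h1

end Cfsg.Agent.Lib.H45SmEaLe
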