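import Mathlib
import Cfsg.Agent.Lib.H45SmDefs


set_option autoImplicit false

namespace Cfsg.Agent.Lib.H45SmExt

open Module QuadraticMap Cfsg.Agent.Lib.Helper45OspDefs Cfsg.Agent.Lib.H45SmDefs

universe u w

section aux

variable {F : Type u} [Field F] [CharP F 2] {V : Type w} [AddCommGroup V] [Module F V]
    (Q : QuadraticForm F V) (a b : V)

omit [CharP F 2] in
theorem polar_map (g : OG Q) (x y : V) : polar Q (g.1 x) (g.1 y) = polar Q x y := by
  have h := (mem_OG Q g.1).1 g.2
  unfold polar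
  rw [← map_add, h, h, h]

def piL : V →ₗ[F] V := 1 + (polarBilin Q b).smulRight a + (polarBilin Q a).smulRight b

omit [CharP F 2] in
theorem piL_apply (x : V) : piL Q a b x = x + polar Q b x • a + polar Q a x • b := by
  simp [piL]

theorem piL_mem (hQa : Q a = 0) (hQb : Q b = 0) (hab : polar Q a b = 1) (x : V) :
    piL Q a b x ∈ Vp Q a b := by
  rw [mem_Vp, piL_apply]
  have haa : polar Q a a = 0 := by rw [polar_self, hQa, smul_zero]
  have hbb : polar Q b b = 0 := by rw [polar_self, hQb, smul_zero]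
  have hba : polar Q b a = 1 := by rw [polar_comm, hab]
  constructor
  · rw [polar_add_right, polar_add_right, polar_smul_right, polar_smul_right, haa, hab]
    simp only [smul_eq_mul, mul_zero, add_zero, mul_one]
    exact CharTwo.add_self_eq_zero _
  · rw [polar_add_right, polar_add_right, polar_smul_right, polar_smul_right, hbb, hba]
    simp only [smul_eq_mul, mul_zero, add_zero, mul_one]
    exact CharTwo.add_self_eq_zero _

def extL (hQa : Q a = 0) (hQb : Q b = 0) (hab : polar Q a b = 1)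
    (g : Vp Q a b →ₗ[F] Vp Q a b) : V →ₗ[F] V :=
  (polarBilin Q b).smulRight a + (polarBilin Q a).smulRight b +
    (Vp Q a b).subtype ∘ₗ g ∘ₗ (piL Q a b).codRestrict (Vp Q a b) (piL_mem Q a b hQa hQb hab)

theorem extL_apply (hQa : Q a = 0) (hQb : Q b = 0) (hab : polar Q a b = 1)
    (g : Vp Q a b →ₗ[F] Vp Q a b) (x : V) :
    extL Q a b hQa hQb hab g x = polar Q b x • a + polar Q a x • b +
      (g ⟨piL Q a b x, piL_mem Q a b hQa hQb hab x⟩ : V) := by
  simp [extL, LinearMap.codRestrict]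

theorem polar_a_ext (hQa : Q a = 0) (hQb : Q b = 0) (hab : polar Q a b = 1)
    (g : Vp Q a b →ₗ[F] Vp Q a b) (x : V) :
    polar Q a (extL Q a b hQa hQb hab g x) = polar Q a x := by
  have haa : polar Q a a = 0 := by rw [polar_self, hQa, smul_zero]
  rw [extL_apply, polar_add_right, polar_add_right, polar_smul_right, polar_smul_right, haa, hab,
    ((mem_Vp Q a b _).1 (g ⟨piL Q a b x, piL_mem Q a b hQa hQb hab x⟩).2).1]
  simp

theorem polar_b_ext (hQa : Q a = 0) (hQb : Q b = 0) (hab : polar Q a b = 1)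
    (g : Vp Q a b →ₗ[F] Vp Q a b) (x : V) :
    polar Q b (extL Q a b hQa hQb hab g x) = polar Q b x := by
  have hbb : polar Q b b = 0 := by rw [polar_self, hQb, smul_zero]
  have hba : polar Q b a = 1 := by rw [polar_comm, hab]
  rw [extL_apply, polar_add_right, polar_add_right, polar_smul_right, polar_smul_right, hbb, hba,
    ((mem_Vp Q a b _).1 (g ⟨piL Q a b x, piL_mem Q a b hQa hQb hab x⟩).2).2]
  simp

include F in
theorem add_add_cancel2 (u v : V) : u + v + u = v := by
  have h : u + u = 0 := by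
    rw [← two_smul F u, CharTwo.two_eq_zero, zero_smul]
  rw [add_comm u v, add_assoc, h, add_zero]

theorem piL_ext (hQa : Q a = 0) (hQb : Q b = 0) (hab : polar Q a b = 1)
    (g : Vp Q a b →ₗ[F] Vp Q a b) (x : V) :
    piL Q a b (extL Q a b hQa hQb hab g x) =
      (g ⟨piL Q a b x, piL_mem Q a b hQa hQb hab x⟩ : V) := by
  rw [piL_apply, polar_a_ext, polar_b_ext, extL_apply, add_assoc]
  exact add_add_cancel2 (F := F) _ _

theorem extL_comp (hQa : Q a = 0) (hQb : Q b = 0) (hab : polar Q a b = 1)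
    (g h : Vp Q a b →ₗ[F] Vp Q a b) (x : V) :
    extL Q a b hQa hQb hab g (extL Q a b hQa hQb hab h x) =
      extL Q a b hQa hQb hab (g ∘ₗ h) x := by
  rw [extL_apply Q a b hQa hQb hab g, polar_a_ext, polar_b_ext,
    extL_apply Q a b hQa hQb hab (g ∘ₗ h)]
  congr 2
  rw [LinearMap.comp_apply]
  congr 1
  exact Subtype.ext (piL_ext Q a b hQa hQb hab h x)

theorem extL_id (hQa : Q a = 0) (hQb : Q b = 0) (hab : polar Q a b = 1) (x : V) :
    extL Q a b hQa hQb hab LinearMap.id x = x := by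
  rw [extL_apply, LinearMap.id_apply]
  show _ + piL Q a b x = x
  rw [piL_apply, add_assoc x, add_comm x]
  rw [← add_assoc]
  have h : ∀ u : V, u + u = 0 := by
    intro u
    rw [← two_smul F u, CharTwo.two_eq_zero, zero_smul]
  rw [h, zero_add]

omit [CharP F 2] in
theorem Q_decomp (hQa : Q a = 0) (hQb : Q b = 0) (hab : polar Q a b = 1) (l μ : F) (v : V)
    (hv : v ∈ Vp Q a b) : Q (l • a + μ • b + v) = l * μ + Q v := by
  have hv1 := ((mem_Vp Q a b v).1 hv).1
  have hv2 := ((mem_Vp Q a b v).1 hv).2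
  rw [QuadraticMap.map_add Q, QuadraticMap.map_add Q, QuadraticMap.map_smul, QuadraticMap.map_smul,
    hQa, hQb, polar_add_left, polar_smul_left, polar_smul_left, polar_smul_left, polar_smul_right,
    hab, hv1, hv2]
  simp only [smul_eq_mul, mul_zero, mul_one, add_zero, zero_add]

theorem Q_ext (hQa : Q a = 0) (hQb : Q b = 0) (hab : polar Q a b = 1)
    (g : Vp Q a b →ₗ[F] Vp Q a b) (hg : ∀ v, Q (g v : V) = Q (v : V)) (x : V) :
    Q (extL Q a b hQa hQb hab g x) = Q x := by
  conv_rhs => rw [← extL_id Q a b hQa hQb hab x]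
  rw [extL_apply, extL_apply, Q_decomp Q a b hQa hQb hab _ _ _ (Subtype.prop _),
    Q_decomp Q a b hQa hQb hab _ _ _ (Subtype.prop _), hg]
  rfl

end aux

/-- piece `Ext`. `f = polar Q`, `V' = Vp Q a b`. Projection `π x = x + f(b,x) a + f(a,x) b ∈ V'` (char 2, `f(a,b) = f(b,a) = 1`, `f(a,a) = f(b,b) = 0`), a linear map `V → V'`
(`LinearMap.codRestrict`), `π x = x` for `x ∈ V'`, `π a = π b = 0`.
For `g' : OG (Qp Q a b)` put `ext g' x = f(b,x) a + f(a,x) b + g' (π x)`.
* `π (ext g' x) = g' (π x)`, `f(a, ext g' x) = f(a,x)`, `f(b, ext g' x) = f(b,x)` (vectors of `V'` are orthogonal to `a,b`), so `ext g' ∘ ext h' = ext (g' h')`, `ext 1 = 1`: linear equivalence with inverse `ext g'⁻¹`;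
* `Q (λ a + μ b + v') = λ μ + Q v'` for `v' ∈ V'`, so `ext g'` preserves `Q` (`x = f(b,x) a + f(a,x) b + π x`);
* `ρ := MonoidHom.mk' …`; injective: `ρ g' = ρ h'` evaluated on `x ∈ V'`; fixes `a` and `b`;
* if `l a = a`, `l b = b` then `l` maps `V'` to `V'` (`f(a, l x) = f(l a, l x) = f(a,x)`), `l' := l` restricted (`LinearEquiv.ofSubmodule'`-free: build with `LinearMap.restrict` for `l` and `l⁻¹`), `ρ l' = l`. -/
theorem exists_ext {F : Type u} [Field F] [CharP F 2] {V : Type w} [AddCommGroup V] [Module F V]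
    (Q : QuadraticForm F V) (a b : V) (hQa : Q a = 0) (hQb : Q b = 0) (hab : polar Q a b = 1) :
    ∃ ρ : OG (Qp Q a b) →* OG Q, Function.Injective ρ ∧
      (∀ g', (ρ g').1 a = a ∧ (ρ g').1 b = b) ∧
      ∀ l : OG Q, l.1 a = a → l.1 b = b → ∃ l', ρ l' = l := by
  have haa : polar Q a a = 0 := by rw [polar_self, hQa, smul_zero]
  have hbb : polar Q b b = 0 := by rw [polar_self, hQb, smul_zero]
  have hba : polar Q b a = 1 := by rw [polar_comm, hab]
  have hinvl : ∀ g' : OG (Qp Q a b), ∀ x,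
      extL Q a b hQa hQb hab (g'⁻¹).1.toLinearMap (extL Q a b hQa hQb hab g'.1.toLinearMap x) = x := by
    intro g' x
    rw [extL_comp]
    have : (g'⁻¹).1.toLinearMap ∘ₗ g'.1.toLinearMap = LinearMap.id := by
      ext v
      show (((g'⁻¹ * g').1 v : Vp Q a b) : V) = v
      rw [inv_mul_cancel]; rfl
    rw [this, extL_id]
  have hinvr : ∀ g' : OG (Qp Q a b), ∀ x,
      extL Q a b hQa hQb hab g'.1.toLinearMap (extL Q a b hQa hQb hab (g'⁻¹).1.toLinearMap x) = x := by
    intro g' x
    have := hinvl g'⁻¹ x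
    rwa [inv_inv] at this
  let ρ0 : OG (Qp Q a b) → OG Q := fun g' =>
    ⟨LinearEquiv.ofLinearMap (extL Q a b hQa hQb hab g'.1.toLinearMap)
      (extL Q a b hQa hQb hab (g'⁻¹).1.toLinearMap)
      (LinearMap.ext (hinvr g')) (LinearMap.ext (hinvl g')), by
      rw [mem_OG]
      intro v
      exact Q_ext Q a b hQa hQb hab _ (fun v => (mem_OG _ _).1 g'.2 v) v⟩
  have hρ0 : ∀ g' x, (ρ0 g').1 x = extL Q a b hQa hQb hab g'.1.toLinearMap x := fun _ _ => rfl
  let ρ : OG (Qp Q a b) →* OG Q := MonoidHom.mk' ρ0 (by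
    intro g' h'
    apply Subtype.ext
    apply LinearEquiv.ext
    intro x
    show (ρ0 (g' * h')).1 x = (ρ0 g').1 ((ρ0 h').1 x)
    rw [hρ0, hρ0, hρ0, extL_comp]
    rfl)
  have hρ : ∀ g' x, (ρ g').1 x = extL Q a b hQa hQb hab g'.1.toLinearMap x := fun _ _ => rfl
  have hpi : ∀ x (hx : x ∈ Vp Q a b), piL Q a b x = x := by
    intro x hx
    rw [piL_apply, ((mem_Vp Q a b x).1 hx).1, ((mem_Vp Q a b x).1 hx).2]; simp
  refine ⟨ρ, ?_, ?_, ?_⟩
  · intro g' h' hgh
    apply Subtype.ext
    apply LinearEquiv.ext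
    intro x
    have h1 : (ρ g').1 x = (ρ h').1 x := by rw [hgh]
    rw [hρ, hρ, extL_apply, extL_apply, ((mem_Vp Q a b x).1 x.2).1, ((mem_Vp Q a b x).1 x.2).2] at h1
    simp only [zero_smul, zero_add] at h1
    have h2 : (⟨piL Q a b x, piL_mem Q a b hQa hQb hab x⟩ : Vp Q a b) = x :=
      Subtype.ext (hpi x x.2)
    rw [h2] at h1
    exact Subtype.ext h1
  · intro g'
    have hza : (⟨piL Q a b a, piL_mem Q a b hQa hQb hab a⟩ : Vp Q a b) = 0 := by
      apply Subtype.ext
      show piL Q a b a = 0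
      rw [piL_apply, hba, haa, one_smul, zero_smul, add_zero, ← two_smul F a,
        CharTwo.two_eq_zero, zero_smul]
    have hzb : (⟨piL Q a b b, piL_mem Q a b hQa hQb hab b⟩ : Vp Q a b) = 0 := by
      apply Subtype.ext
      show piL Q a b b = 0
      rw [piL_apply, hbb, hab, one_smul, zero_smul, add_zero, ← two_smul F b,
        CharTwo.two_eq_zero, zero_smul]
    constructor
    · rw [hρ, extL_apply, hza, hba, haa]; simp
    · rw [hρ, extL_apply, hzb, hbb, hab]; simp
  · intro l hla hlb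
    have hla' : (l⁻¹).1 a = a := by
      conv_lhs => rw [← hla]
      show (l⁻¹ * l).1 a = a
      rw [inv_mul_cancel]; rfl
    have hlb' : (l⁻¹).1 b = b := by
      conv_lhs => rw [← hlb]
      show (l⁻¹ * l).1 b = b
      rw [inv_mul_cancel]; rfl
    have hmaps : ∀ k : OG Q, k.1 a = a → k.1 b = b → ∀ x ∈ Vp Q a b, k.1.toLinearMap x ∈ Vp Q a b := by
      intro k hka hkb x hx
      refine ⟨?_, ?_⟩
      · show polar Q a (k.1 x) = 0
        rw [← ((mem_Vp Q a b x).1 hx).1]
        conv_lhs => rw [← hka]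
        exact polar_map Q k a x
      · show polar Q b (k.1 x) = 0
        rw [← ((mem_Vp Q a b x).1 hx).2]
        conv_lhs => rw [← hkb]
        exact polar_map Q k b x
    let l' : OG (Qp Q a b) :=
      ⟨LinearEquiv.ofLinearMap (l.1.toLinearMap.restrict (hmaps l hla hlb))
        ((l⁻¹).1.toLinearMap.restrict (hmaps l⁻¹ hla' hlb'))
        (by
          ext v
          show (l * l⁻¹).1 (v : V) = v
          rw [mul_inv_cancel]; rfl)
        (by
          ext v
          show (l⁻¹ * l).1 (v : V) = v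
          rw [inv_mul_cancel]; rfl), by
        rw [mem_OG]
        intro v
        exact (mem_OG Q l.1).1 l.2 v⟩
    refine ⟨l', ?_⟩
    apply Subtype.ext
    apply LinearEquiv.ext
    intro x
    rw [hρ, extL_apply]
    show _ + l.1 (piL Q a b x) = l.1 x
    rw [piL_apply, map_add, map_add, map_smul, map_smul, hla, hlb, add_assoc (l.1 x),
      add_comm (l.1 x), ← add_assoc]
    have h : ∀ u : V, u + u = 0 := by
      intro u
      rw [← two_smul F u, CharTwo.two_eq_zero, zero_smul]
    rw [h, zero_add]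

end Cfsg.Agent.Lib.H45SmExt
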