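import Mathlib
import Cfsg.Agent.Lib.H45SmDefs


set_option autoImplicit false

namespace Cfsg.Agent.Lib.H45SmFix

open Module QuadraticMap Cfsg.Agent.Lib.Helper45OspDefs Cfsg.Agent.Lib.H45SmDefs

universe u w

/-- piece `Fix`. `X = {v : V // v ≠ 0 ∧ Q v = 0}` has `2^(2m-1) + (2^m - 2^(m-1)) - 1` elements (`hT.2.2.2`, remove `0`), an odd number as `m ≥ 2`.
`H` acts on `X` (`h • v = h.1.1 v`; `MulAction` instance by hand: `one_smul`, `mul_smul` are `rfl`-like; `h v ≠ 0` by injectivity, `Q (h v) = Q v` by `h.1.2`).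
`IsPGroup.nonempty_fixed_point_of_prime_not_dvd_card` (`hH`, `¬ 2 ∣ Nat.card X`) gives a fixed point. (`V` is finite: `Module.finite_of_finite F`.) -/
theorem exists_fixed {F : Type u} [Field F] [Fintype F] {V : Type w} [AddCommGroup V] [Module F V]
    [Module.Finite F V] (hF : Fintype.card F = 2) (m : ℕ) (hm : 2 ≤ m) (Q : QuadraticForm F V)
    (hT : Typ 1 m Q) (H : Subgroup (OG Q)) (hH : IsPGroup 2 H) :
    ∃ a : V, a ≠ 0 ∧ Q a = 0 ∧ ∀ h ∈ H, h.1 a = a := by
  classical
  haveI : Fact (Nat.Prime 2) := ⟨Nat.prime_two⟩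
  haveI : Finite V := Module.finite_of_finite F
  let X := {v : V // v ≠ 0 ∧ Q v = 0}
  letI : MulAction H X :=
    { smul := fun h v => ⟨h.1.1 v.1, by
        refine ⟨fun h0 => v.2.1 ?_, by rw [h.1.2]; exact v.2.2⟩
        exact (LinearEquiv.map_eq_zero_iff h.1.1).1 h0⟩
      one_smul := fun v => Subtype.ext rfl
      mul_smul := fun g h v => Subtype.ext rfl }
  have hcard : (Nat.card X : ℤ) + 1 = (Nat.card {x : V // Q x = 0} : ℤ) := by
    have e : {x : V // Q x = 0} ≃ Option X :=
      { toFun := fun x => if h : x.1 = 0 then none else some ⟨x.1, h, x.2⟩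
        invFun := fun o => match o with
          | none => ⟨0, map_zero Q⟩
          | some v => ⟨v.1, v.2.2⟩
        left_inv := by
          intro x
          by_cases h : x.1 = 0
          · simp only [h, dite_true]
            exact Subtype.ext h.symm
          · simp only [h, dite_false]
        right_inv := by
          intro o
          cases o with
          | none => simp
          | some v => simp [v.2.1] }
    rw [Nat.card_congr e, Finite.card_option]
    push_cast
    ring
  have hodd : ¬ 2 ∣ Nat.card X := by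
    have h1 := hT.2.2.2
    rw [hF] at h1
    rw [← hcard] at h1
    obtain ⟨k, rfl⟩ : ∃ k, m = k + 2 := ⟨m - 2, by omega⟩
    intro hd
    have hd' : (2 : ℤ) ∣ (Nat.card X : ℤ) := by exact_mod_cast hd
    have e1 : 2 * (k + 2) - 1 = (2 * k + 2) + 1 := by omega
    have e2 : k + 2 - 1 = k + 1 := by omega
    rw [e1, e2] at h1
    have h3 : (Nat.card X : ℤ) = 2 * ((2 : ℤ) ^ (2 * k + 2) + 2 ^ (k + 1) - 2 ^ k) - 1 := by
      push_cast at h1
      have : (Nat.card X : ℤ) = (2 : ℤ) ^ (2 * k + 2 + 1) + 1 * ((2 : ℤ) ^ (k + 2) - 2 ^ (k + 1)) - 1 := by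
        linarith
      rw [this]
      ring
    rw [h3] at hd'
    omega
  obtain ⟨v, hv⟩ := hH.nonempty_fixed_point_of_prime_not_dvd_card X hodd
  refine ⟨v.1, v.2.1, v.2.2, fun h hh => ?_⟩
  have := hv ⟨h, hh⟩
  exact congrArg Subtype.val this

end Cfsg.Agent.Lib.H45SmFix
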