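import Mathlib
import Cfsg.Agent.Lib.H45SmDefs
import Cfsg.Agent.Lib.H45SmSieg

set_option autoImplicit false

namespace Cfsg.Agent.Lib.H45SmTrans

open Module QuadraticMap Cfsg.Agent.Lib.Helper45OspDefs Cfsg.Agent.Lib.H45SmDefs

universe u w

/-- piece `Trans`. `w = b + b'`: `f(a,w) = 1 + 1 = 0`; `Q w = Q b + Q b' + f(b,b') = f(b,b')`; `f(w,b) = f(b,b) + f(b',b) = f(b,b')`.
`siegL Q a w b = b + f(w,b) a + f(a,b) w + Q w f(a,b) a = b + f(b,b') a + (b + b') + f(b,b') a = b'` (char 2). `e` from `exists_sieg Q a w`. -/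
theorem trans {F : Type u} [Field F] [CharP F 2] {V : Type w} [AddCommGroup V] [Module F V]
    (Q : QuadraticForm F V) (a b b' : V) (hQa : Q a = 0) (hQb : Q b = 0) (hQb' : Q b' = 0)
    (hab : polar Q a b = 1) (hab' : polar Q a b' = 1) : ∃ e ∈ Ea Q a, e.1 b = b' := by
  have haw : polar Q a (b + b') = 0 := by
    rw [polar_add_right, hab, hab']
    exact CharTwo.add_self_eq_zero _
  obtain ⟨g, hg1, hg2⟩ := Cfsg.Agent.Lib.H45SmSieg.exists_sieg Q a (b + b') hQa haw
  refine ⟨g, hg2, ?_⟩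
  have hbb : polar Q b b = 0 := by rw [polar_self, hQb, smul_zero]
  have h2 : ∀ u : V, u + u = 0 := by
    intro u
    rw [← two_smul F u, CharTwo.two_eq_zero, zero_smul]
  rw [hg1, siegL_apply, hab, QuadraticMap.map_add Q, hQb, hQb', polar_add_left, hbb,
    polar_comm Q b' b]
  simp only [zero_add, one_smul, mul_one]
  have : b + polar Q b b' • a + (b + b') + polar Q b b' • a
      = (b + b) + (polar Q b b' • a + polar Q b b' • a) + b' := by abel
  rw [this, h2, h2, zero_add, zero_add]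

end Cfsg.Agent.Lib.H45SmTrans
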