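import Mathlib
import Cfsg.Agent.Lib.H45SmDefs
import Cfsg.Agent.Lib.H45SmEaLe
import Cfsg.Agent.Lib.H45SmTrans

set_option autoImplicit false

namespace Cfsg.Agent.Lib.H45SmMaxRes

open Module QuadraticMap Cfsg.Agent.Lib.Helper45OspDefs Cfsg.Agent.Lib.H45SmDefs

universe u w

theorem polar_isom {F : Type u} [Field F] {V : Type w} [AddCommGroup V] [Module F V]
    (Q : QuadraticForm F V) (h : OG Q) (x y : V) : polar Q (h.1 x) (h.1 y) = polar Q x y := by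
  unfold polar
  rw [← map_add, h.2, h.2, h.2]

/-- piece `MaxRes` (group theory). `IsPGroup 2 (H.comap ρ)`: `IsPGroup.comap_of_injective hH.1 ρ hinj`.
Maximality: let `S'` be a 2-subgroup of `G'` with `H.comap ρ ≤ S'`. `S = S'.map ρ` is a 2-group (`IsPGroup.map`) fixing `a` (`hfix`), so `S ⊔ Ea Q a` is a 2-group (`EaLe.isPGroup_sup`).
`H ≤ S ⊔ Ea Q a`: for `h ∈ H`: `h a = a`, `b' = h b` is singular with `f(a,b') = f(h a, h b) = 1`; `Trans.trans` gives `e ∈ Ea Q a` with `e b = h b`; `l = e⁻¹ h` fixes `a` and `b`, so `l = ρ l'` (`hsurj`);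
`e ∈ H` (`EaLe.Ea_le`), so `l ∈ H`, `l' ∈ H.comap ρ ≤ S'`, `l ∈ S`, `h = e l ∈ S ⊔ Ea Q a` (`Subgroup.mul_mem_sup`-style).
By `hH.2`: `S ⊔ Ea Q a = H`, so `S ≤ H`, i.e. `S' ≤ H.comap ρ` (`Subgroup.map_le_iff_le_comap`); `le_antisymm`. -/
theorem max_res {F : Type u} [Field F] [CharP F 2] {V : Type w} [AddCommGroup V] [Module F V]
    (Q : QuadraticForm F V) (a b : V) (hQa : Q a = 0) (hQb : Q b = 0) (hab : polar Q a b = 1)
    {G' : Type w} [Group G'] (ρ : G' →* OG Q) (hinj : Function.Injective ρ)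
    (hfix : ∀ g', (ρ g').1 a = a ∧ (ρ g').1 b = b)
    (hsurj : ∀ l : OG Q, l.1 a = a → l.1 b = b → ∃ l', ρ l' = l)
    (H : Subgroup (OG Q)) (hH : MaxP H) (hHa : ∀ h ∈ H, h.1 a = a) : MaxP (H.comap ρ) := by
  refine ⟨IsPGroup.comap_of_injective hH.1 ρ hinj, fun S' hS' hle => ?_⟩
  have hS : IsPGroup 2 (S'.map ρ) := hS'.map ρ
  have hSa : ∀ h ∈ S'.map ρ, h.1 a = a := by
    rintro _ ⟨g', _, rfl⟩
    exact (hfix g').1
  have hsup := Cfsg.Agent.Lib.H45SmEaLe.isPGroup_sup Q a (S'.map ρ) hS hSa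
  have hEaH := Cfsg.Agent.Lib.H45SmEaLe.Ea_le Q a H hH hHa
  have hHle : H ≤ S'.map ρ ⊔ Ea Q a := by
    intro h hh
    have h1 : h.1 a = a := hHa h hh
    have h2 : Q (h.1 b) = 0 := by rw [h.2, hQb]
    have h3 : polar Q a (h.1 b) = 1 := by
      conv_lhs => rw [← h1]
      rw [polar_isom, hab]
    obtain ⟨e, he, heb⟩ := Cfsg.Agent.Lib.H45SmTrans.trans Q a b (h.1 b) hQa hQb h2 hab h3
    have hinv : ∀ y, (e⁻¹).1 (e.1 y) = y := by
      intro y
      show (e.1⁻¹ * e.1) y = y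
      rw [inv_mul_cancel]; rfl
    have hla : (e⁻¹ * h).1 a = a := by
      show (e⁻¹).1 (h.1 a) = a
      rw [h1]
      conv_lhs => rw [← he.1]
      exact hinv a
    have hlb : (e⁻¹ * h).1 b = b := by
      show (e⁻¹).1 (h.1 b) = b
      rw [← heb]
      exact hinv b
    obtain ⟨l', hl'⟩ := hsurj (e⁻¹ * h) hla hlb
    have hlH : e⁻¹ * h ∈ H := H.mul_mem (H.inv_mem (hEaH he)) hh
    have hl'S : l' ∈ S' := hle (by rw [Subgroup.mem_comap, hl']; exact hlH)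
    have : h = e * (e⁻¹ * h) := by group
    rw [this]
    exact mul_mem (Subgroup.mem_sup_right he) (Subgroup.mem_sup_left ⟨l', hl'S, hl'⟩)
  have heq := hH.2 _ hsup hHle
  apply le_antisymm _ hle
  rw [← Subgroup.map_le_iff_le_comap, ← heq]
  exact le_sup_left

end Cfsg.Agent.Lib.H45SmMaxRes
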