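import Mathlib
import Cfsg.Agent.Lib.H45SmDefs
import Cfsg.Agent.Lib.H45SmExt
import Cfsg.Agent.Lib.Helper48QuadType

set_option autoImplicit false

namespace Cfsg.Agent.Lib.H45SmSplit

open Module QuadraticMap Cfsg.Agent.Lib.Helper45OspDefs Cfsg.Agent.Lib.H45SmDefs

universe u w

/-- piece `Split`. `T : (Fin 1 ⊕ Fin 1 → F) × Vp Q a b ≃ₗ V`, `T (c, v') = c (inl 0) • a + c (inr 0) • b + v'`; inverse `x ↦ (![f(b,x), f(a,x)], π x)` with
`π x = x + f(b,x) a + f(a,x) b` (char 2; see piece `Ext`). `Q (λ a + μ b + v') = λ μ + Q v'` and `QP F 1 c = c (inl 0) * c (inr 0)` (`Helper7OPlus.QP_apply`, `Cfsg.quadFormPlus`, `Fin.sum_univ_one`/`simp`).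
`Isom Q₁ Q₂ := ∃ T : V₁ ≃ₗ V₂, ∀ v, Q₂ (T v) = Q₁ v`. -/
theorem split {F : Type u} [Field F] [CharP F 2] {V : Type w} [AddCommGroup V] [Module F V]
    (Q : QuadraticForm F V) (a b : V) (hQa : Q a = 0) (hQb : Q b = 0) (hab : polar Q a b = 1) :
    Cfsg.Agent.Lib.Helper48QuadType.Isom
      ((Cfsg.Agent.Lib.Helper7OPlus.QP F 1).prod (Qp Q a b)) Q := by
  have haa : polar Q a a = 0 := by rw [polar_self, hQa, smul_zero]
  have hbb : polar Q b b = 0 := by rw [polar_self, hQb, smul_zero]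
  have hba : polar Q b a = 1 := by rw [polar_comm, hab]
  let Tl : (Fin 1 ⊕ Fin 1 → F) × Vp Q a b →ₗ[F] V :=
    LinearMap.coprod ((LinearMap.proj (Sum.inl 0)).smulRight a
      + (LinearMap.proj (Sum.inr 0)).smulRight b) (Vp Q a b).subtype
  have hTl : ∀ p, Tl p = p.1 (Sum.inl 0) • a + p.1 (Sum.inr 0) • b + (p.2 : V) := by
    intro p
    simp [Tl]
  have hinj : Function.Injective Tl := by
    rw [injective_iff_map_eq_zero]
    intro p hp
    rw [hTl] at hp
    have h1 : polar Q a (p.1 (Sum.inl 0) • a + p.1 (Sum.inr 0) • b + (p.2 : V)) = 0 := by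
      rw [hp, polar_zero_right]
    have h2 : polar Q b (p.1 (Sum.inl 0) • a + p.1 (Sum.inr 0) • b + (p.2 : V)) = 0 := by
      rw [hp, polar_zero_right]
    rw [polar_add_right, polar_add_right, polar_smul_right, polar_smul_right, haa, hab,
      ((mem_Vp Q a b _).1 p.2.2).1] at h1
    rw [polar_add_right, polar_add_right, polar_smul_right, polar_smul_right, hbb, hba,
      ((mem_Vp Q a b _).1 p.2.2).2] at h2
    simp only [smul_eq_mul, mul_zero, mul_one, add_zero, zero_add] at h1 h2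
    rw [h1, h2] at hp
    simp only [zero_smul, zero_add] at hp
    apply Prod.ext
    · funext i
      rcases i with i | i
      · rw [Subsingleton.elim i 0]; exact h2
      · rw [Subsingleton.elim i 0]; exact h1
    · exact Subtype.ext hp
  have hsurj : Function.Surjective Tl := by
    intro x
    refine ⟨(Sum.elim (fun _ => polar Q b x) (fun _ => polar Q a x),
      ⟨Cfsg.Agent.Lib.H45SmExt.piL Q a b x, Cfsg.Agent.Lib.H45SmExt.piL_mem Q a b hQa hQb hab x⟩), ?_⟩
    rw [hTl]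
    have := Cfsg.Agent.Lib.H45SmExt.extL_id Q a b hQa hQb hab x
    rw [Cfsg.Agent.Lib.H45SmExt.extL_apply] at this
    exact this
  refine ⟨LinearEquiv.ofBijective Tl ⟨hinj, hsurj⟩, fun p => ?_⟩
  show Q (Tl p) = _
  rw [hTl, Cfsg.Agent.Lib.H45SmExt.Q_decomp Q a b hQa hQb hab _ _ _ p.2.2, QuadraticMap.prod_apply,
    Cfsg.Agent.Lib.Helper7OPlus.QP_apply, Qp_apply]
  simp [Cfsg.quadFormPlus]

end Cfsg.Agent.Lib.H45SmSplit
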