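import Mathlib
import Cfsg.Agent.Lib.H45SqDefs
import Cfsg.Agent.Lib.Helper45OspStd

set_option autoImplicit false

namespace Cfsg.Agent.Lib.H45SqCls

open Module QuadraticMap Cfsg.Agent.Lib.Helper45OspDefs Cfsg.Agent.Lib.H45SqDefs
  Cfsg.Agent.Lib.Helper48QuadType Cfsg.Agent.Lib.Helper45OspStd

universe u w

variable {F : Type u} [Field F] [Fintype F] {W : Type w} [AddCommGroup W] [Module F W]

/-- piece `Cls` (a). The two zero counts differ (`q^(m-1) < q^m`). -/
theorem typ_unique (m : ℕ) (Q : QuadraticForm F W) (h1 : Typ 1 m Q) (h2 : Typ (-1) m Q) : False := by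
  have e1 := h1.2.2.2
  have e2 := h2.2.2.2
  rw [e1] at e2
  have h3 : (Fintype.card F : ℤ) ^ (m - 1) < (Fintype.card F : ℤ) ^ m := by
    have : Fintype.card F ^ (m - 1) < Fintype.card F ^ m :=
      Nat.pow_lt_pow_right Fintype.one_lt_card (by have := h1.1; omega)
    exact_mod_cast this
  linarith

/-- piece `Cls` (b). -/
theorem dich [Module.Finite F W] (m : ℕ) (hm : 1 ≤ m) (hW : finrank F W = 2 * m)
    (Q : QuadraticForm F W) (hQ : (polarBilin Q).Nondegenerate) : Typ 1 m Q ∨ Typ (-1) m Q := by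
  rcases isom_std hm hW Q hQ with h | ⟨ζ, hζ, h⟩
  · exact Or.inl (typ_of_isom _ _ h.symm _ _ (typ_QP m hm))
  · exact Or.inr (typ_of_isom _ _ h.symm _ _ (typ_QM m hm 1 ζ (aniso_of_rootless ζ hζ)))

/-- piece `Cls` (c). -/
theorem isom_of_typ [Module.Finite F W] {W' : Type w} [AddCommGroup W'] [Module F W']
    [Module.Finite F W'] (ε : ℤ) (hε : ε = 1 ∨ ε = -1) (m : ℕ)
    (Q : QuadraticForm F W) (Q' : QuadraticForm F W') (h : Typ ε m Q) (h' : Typ ε m Q') :
    Cfsg.Agent.Lib.Helper48QuadType.Isom Q Q' := by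
  have hm := h.1
  rcases isom_std hm h.2.2.1 Q h.2.1 with a | ⟨ζ, hζ, a⟩ <;>
  rcases isom_std hm h'.2.2.1 Q' h'.2.1 with b | ⟨ζ', hζ', b⟩
  · exact a.trans b.symm
  · exfalso
    have t1 := typ_of_isom _ _ a.symm _ _ (typ_QP (F := F) m hm)
    have t2 := typ_of_isom _ _ b.symm _ _ (typ_QM m hm 1 ζ' (aniso_of_rootless ζ' hζ'))
    rcases hε with rfl | rfl
    · exact typ_unique m Q' h' t2
    · exact typ_unique m Q t1 h
  · exfalso
    have t1 := typ_of_isom _ _ b.symm _ _ (typ_QP (F := F) m hm)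
    have t2 := typ_of_isom _ _ a.symm _ _ (typ_QM m hm 1 ζ (aniso_of_rootless ζ hζ))
    rcases hε with rfl | rfl
    · exact typ_unique m Q h t2
    · exact typ_unique m Q' t1 h'
  · exact (a.trans (isom_QM_param _ ζ ζ' hζ hζ')).trans b.symm

end Cfsg.Agent.Lib.H45SqCls
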