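import Mathlib
import Cfsg.Agent.Lib.H45SmDefs
import Cfsg.Agent.Lib.H45SmSplit
import Cfsg.Agent.Lib.H45SqCls
import Cfsg.Agent.Lib.Helper45OspSum

set_option autoImplicit false

namespace Cfsg.Agent.Lib.H45SmTypPerp

open Module QuadraticMap Cfsg.Agent.Lib.Helper45OspDefs Cfsg.Agent.Lib.H45SmDefs

universe u w

/-- piece `TypPerp`. `Q' = Qp Q a b`. From `split`: `T : (Fin 1 ⊕ Fin 1 → F) × V' ≃ₗ V`, so `finrank V' = 2(k+1) - 2 = 2k` (`LinearEquiv.finrank_eq`, `Module.finrank_prod`).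
`polarBilin Q'` nondegenerate: if `x ∈ V'` is orthogonal to `V'`, it is orthogonal to `a`, `b` and `V'`, hence to `V` (surjectivity of `T`), so `x = 0` (`Helper42Quad.nondeg_iff`).
`H45SqCls.dich k hk _ Q' _`: `Typ 1 k Q'` or `Typ (-1) k Q'`. In the second case `Helper45OspSum.typ_prod 1 (-1) 1 k (QP F 1) Q' (Helper45OspStd.typ_QP 1 le_rfl) _ : Typ (1 * -1) (1 + k) _`,
transported by `Helper45OspStd.typ_of_isom` along `split` to `Q`, contradicts `hT` by `H45SqCls.typ_unique` (`1 + k = k + 1`, `1 * -1 = -1`). -/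
theorem typ_perp {F : Type u} [Field F] [Fintype F] [CharP F 2] {V : Type w} [AddCommGroup V]
    [Module F V] [Module.Finite F V] (k : ℕ) (hk : 1 ≤ k) (Q : QuadraticForm F V)
    (hT : Typ 1 (k + 1) Q) (a b : V) (hQa : Q a = 0) (hQb : Q b = 0) (hab : polar Q a b = 1) :
    Typ 1 k (Qp Q a b) := by
  have hsp := Cfsg.Agent.Lib.H45SmSplit.split Q a b hQa hQb hab
  have hfin : finrank F (Vp Q a b) = 2 * k := by
    obtain ⟨T, -⟩ := hsp
    have h1 := T.finrank_eq
    rw [Module.finrank_prod, hT.2.2.1, Module.finrank_fintype_fun_eq_card, Fintype.card_sum,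
      Fintype.card_fin] at h1
    omega
  have hnd : (polarBilin (Qp Q a b)).Nondegenerate := by
    rw [Cfsg.Agent.Lib.Helper42Quad.nondeg_iff]
    intro x hx
    apply Subtype.ext
    apply (Cfsg.Agent.Lib.Helper42Quad.nondeg_iff Q).1 hT.2.1
    intro y
    have hy := Cfsg.Agent.Lib.H45SmExt.extL_id Q a b hQa hQb hab y
    rw [Cfsg.Agent.Lib.H45SmExt.extL_apply] at hy
    rw [← hy, polar_add_right, polar_add_right, polar_smul_right, polar_smul_right,
      polar_comm Q _ a, polar_comm Q _ b, ((mem_Vp Q a b _).1 x.2).1, ((mem_Vp Q a b _).1 x.2).2]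
    simp only [smul_zero, zero_add]
    exact hx ⟨Cfsg.Agent.Lib.H45SmExt.piL Q a b y,
      Cfsg.Agent.Lib.H45SmExt.piL_mem Q a b hQa hQb hab y⟩
  rcases Cfsg.Agent.Lib.H45SqCls.dich k hk hfin (Qp Q a b) hnd with h | h
  · exact h
  · exfalso
    have h1 := Cfsg.Agent.Lib.Helper45OspSum.typ_prod 1 (-1) 1 k
      (Cfsg.Agent.Lib.Helper7OPlus.QP F 1) (Qp Q a b)
      (Cfsg.Agent.Lib.Helper45OspStd.typ_QP 1 le_rfl) h
    have h2 := Cfsg.Agent.Lib.Helper45OspStd.typ_of_isom _ _ hsp _ _ h1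
    rw [one_mul, add_comm] at h2
    exact Cfsg.Agent.Lib.H45SqCls.typ_unique _ Q hT h2

end Cfsg.Agent.Lib.H45SmTypPerp
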