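import Mathlib
import Cfsg.Agent.Lib.H45SmDefs
import Cfsg.Agent.Lib.H45SmFix
import Cfsg.Agent.Lib.H45SmEaLe
import Cfsg.Agent.Lib.H45SmCommon
import Cfsg.Agent.Lib.H45SmExt
import Cfsg.Agent.Lib.H45SmTypPerp
import Cfsg.Agent.Lib.H45SmMaxRes
import Cfsg.Agent.Lib.H45SmBase

set_option autoImplicit false

namespace Cfsg.Agent.Lib.H45SmInd

open Module QuadraticMap Cfsg.Agent.Lib.Helper45OspDefs Cfsg.Agent.Lib.H45SmDefs

universe u w

theorem eq_one_of_ne_zero {F : Type u} [Field F] [Fintype F] (hF : Fintype.card F = 2) (c : F)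
    (hc : c ≠ 0) : c = 1 := by
  classical
  by_contra h1
  have h3 : ({0, 1, c} : Finset F).card = 3 := by
    rw [Finset.card_insert_of_notMem, Finset.card_insert_of_notMem, Finset.card_singleton]
    · simpa using Ne.symm h1
    · simp only [Finset.mem_insert, Finset.mem_singleton, not_or]
      exact ⟨zero_ne_one, Ne.symm hc⟩
  have := Finset.card_le_univ ({0, 1, c} : Finset F)
  omega

/-- assembly: the induction. -/
theorem meet {F : Type u} [Field F] [Fintype F] [CharP F 2] (hF : Fintype.card F = 2) (k : ℕ) :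
    ∀ (V : Type w) [AddCommGroup V] [Module F V] [Module.Finite F V] (Q : QuadraticForm F V),
      Typ 1 (k + 1) Q → ∀ H K : Subgroup (OG Q), MaxP H → MaxP K → H ⊓ K ≠ ⊥ := by
  induction k with
  | zero =>
    intro V _ _ _ Q hT H K hH hK
    exact Cfsg.Agent.Lib.H45SmBase.base hF Q hT H K hH hK
  | succ k ih =>
    intro V _ _ _ Q hT H K hH hK
    obtain ⟨a, ha0, hQa, hHa⟩ :=
      Cfsg.Agent.Lib.H45SmFix.exists_fixed hF (k + 1 + 1) (by omega) Q hT H hH.1
    obtain ⟨b, hb0, hQb, hKb⟩ :=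
      Cfsg.Agent.Lib.H45SmFix.exists_fixed hF (k + 1 + 1) (by omega) Q hT K hK.1
    have hEa := Cfsg.Agent.Lib.H45SmEaLe.Ea_le Q a H hH hHa
    have hEb := Cfsg.Agent.Lib.H45SmEaLe.Ea_le Q b K hK hKb
    by_cases hab : polar Q a b = 0
    · obtain ⟨g, hg1, hga, hgb⟩ := Cfsg.Agent.Lib.H45SmCommon.common hF Q hT.2.1
        (by rw [hT.2.2.1]; omega) a b ha0 hb0 hQa hQb hab
      intro hbot
      have hmem : g ∈ H ⊓ K := ⟨hEa hga, hEb hgb⟩
      rw [hbot, Subgroup.mem_bot] at hmem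
      exact hg1 hmem
    · have hab1 : polar Q a b = 1 := eq_one_of_ne_zero hF _ hab
      have hba1 : polar Q b a = 1 := by rw [polar_comm]; exact hab1
      obtain ⟨ρ, hinj, hfix, hsurj⟩ := Cfsg.Agent.Lib.H45SmExt.exists_ext Q a b hQa hQb hab1
      have hT' := Cfsg.Agent.Lib.H45SmTypPerp.typ_perp (k + 1) (by omega) Q hT a b hQa hQb hab1
      have hH' := Cfsg.Agent.Lib.H45SmMaxRes.max_res Q a b hQa hQb hab1 ρ hinj hfix hsurj H hH hHa
      have hK' := Cfsg.Agent.Lib.H45SmMaxRes.max_res Q b a hQb hQa hba1 ρ hinj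
        (fun g' => ⟨(hfix g').2, (hfix g').1⟩) (fun l h1 h2 => hsurj l h2 h1) K hK hKb
      have hne := ih (Vp Q a b) (Qp Q a b) hT' _ _ hH' hK'
      intro hbot
      apply hne
      rw [eq_bot_iff]
      intro g' hg'
      have hmem : ρ g' ∈ H ⊓ K := ⟨hg'.1, hg'.2⟩
      rw [hbot, Subgroup.mem_bot] at hmem
      rw [Subgroup.mem_bot]
      exact hinj (hmem.trans (map_one ρ).symm)

end Cfsg.Agent.Lib.H45SmInd
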