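import Mathlib
import Cfsg.Agent.Lib.H45SmDefs


set_option autoImplicit false

namespace Cfsg.Agent.Lib.H45SmTr

open Module QuadraticMap Cfsg.Agent.Lib.Helper45OspDefs Cfsg.Agent.Lib.H45SmDefs

universe u w

universe v

/-- piece `Tr` (a) (pure group theory): a Sylow 2-subgroup is a maximal 2-subgroup (`P.isPGroup'`, `P.is_maximal'`). -/
theorem maxP_sylow {G : Type u} [Group G] (P : Sylow 2 G) : MaxP (P : Subgroup G) := by
  exact ⟨P.isPGroup', fun S hS hle => P.is_maximal' hS hle⟩

/-- piece `Tr` (b) (pure group theory): `IsPGroup.map`; if `H.map e ≤ S` then `H ≤ S.comap e`, a 2-group (`IsPGroup.comap_of_injective`), so `S.comap e = H` and `S = (S.comap e).map e`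
(`Subgroup.map_comap_eq_self_of_surjective`). -/
theorem maxP_map {G : Type u} [Group G] {G' : Type v} [Group G'] (e : G ≃* G') (H : Subgroup G)
    (hH : MaxP H) : MaxP (H.map e.toMonoidHom) := by
  refine ⟨hH.1.map _, fun S hS hle => ?_⟩
  have h1 : H ≤ S.comap e.toMonoidHom := Subgroup.map_le_iff_le_comap.1 hle
  have h2 : IsPGroup 2 (S.comap e.toMonoidHom) := hS.comap_of_injective _ e.injective
  have h3 := hH.2 _ h2 h1
  rw [← h3, Subgroup.map_comap_eq_self_of_surjective e.surjective]

end Cfsg.Agent.Lib.H45SmTr
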