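import Mathlib
import Cfsg.Agent.Lib.H45SqDefs
import Cfsg.Agent.Lib.Helper45TrB
import Cfsg.Agent.Lib.H45SqKer

set_option autoImplicit false

namespace Cfsg.Agent.Lib.H45SqEven

open Module QuadraticMap Cfsg.Agent.Lib.Helper45OspDefs Cfsg.Agent.Lib.H45SqDefs

universe u w

/-- piece `Even`. -/
theorem even_of {F : Type u} [Field F] [CharP F 2] {W : Type w} [AddCommGroup W]
    [Module F W] [Module.Finite F W] (m : ℕ) (Q : QuadraticForm F W)
    (hnd : (polarBilin Q).Nondegenerate) (hW : finrank F W = 2 * m)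
    (X : End F W) (hX : X * X = 1) (hP : PIso Q X) (h0 : ∀ v, polar Q v (X v) = 0)
    (hK : finrank F (LinearMap.ker (X - 1)) = m) : Even m := by
  have hadj := Cfsg.Agent.Lib.H45SqKer.adj Q X hX hP
  obtain ⟨C, hC⟩ := Submodule.exists_isCompl (LinearMap.ker (X - 1))
  have hCdim : finrank F C = m := by
    have := Submodule.finrank_add_eq_of_isCompl hC
    omega
  let β : C →ₗ[F] C →ₗ[F] F := ((polarBilin Q).compl₂ (X - 1)).domRestrict₁₂ C C
  have hβ : ∀ u v : C, β u v = polar Q u.1 ((X - 1) v.1) := fun u v => rfl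
  have hA : ∀ x, β x x = 0 := by
    intro x
    rw [hβ]
    simp only [LinearMap.sub_apply, Module.End.one_apply, polar_sub_right, h0, polar_self]
    have h2 : (2 : F) = 0 := CharTwo.two_eq_zero
    rw [two_nsmul, CharTwo.add_self_eq_zero, sub_zero]
  have hnd' : ∀ u, (∀ v, β u v = 0) → u = 0 := by
    intro c hc
    have h1 : (X - 1) c.1 = 0 := by
      apply hnd.1
      intro w
      have hw : w ∈ LinearMap.ker (X - 1) ⊔ C := by rw [hC.sup_eq_top]; exact Submodule.mem_top
      obtain ⟨k, hk, c', hc', rfl⟩ := Submodule.mem_sup.mp hw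
      rw [polarBilin_apply_apply, hadj, map_add, LinearMap.mem_ker.mp hk, zero_add]
      exact hc ⟨c', hc'⟩
    have h2 : (c : W) ∈ LinearMap.ker (X - 1) ⊓ C := ⟨h1, c.2⟩
    rw [hC.inf_eq_bot] at h2
    exact Subtype.ext h2
  obtain ⟨k, hk⟩ := Cfsg.Agent.Lib.Helper45TrB.even_finrank_of_alt β hA hnd'
  exact ⟨k, by omega⟩

end Cfsg.Agent.Lib.H45SqEven
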