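import Mathlib
import Cfsg.Agent.Lib.H45SqDefs
import Cfsg.Agent.Lib.H45SqCls
import Cfsg.Agent.Lib.H45SqInvEx
import Cfsg.Agent.Lib.H45SqAvgFin
import Cfsg.Agent.Lib.H45SqKer
import Cfsg.Agent.Lib.H45SqEven
import Cfsg.Agent.Lib.H45SqLag
import Cfsg.Agent.Lib.Helper45OspStd

set_option autoImplicit false

namespace Cfsg.Agent.Lib.H45SqInv

open Module QuadraticMap Cfsg.Agent.Lib.Helper45OspDefs Cfsg.Agent.Lib.H45SqDefs

universe u w

variable {F : Type u} [Field F] [Fintype F] {W : Type w} [AddCommGroup W] [Module F W]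
  [Module.Finite F W]

/-- assembly: an involution of the symplectic group fixes a form of type `ε` if `ε = 1` or `m` is odd. -/
theorem inv [CharP F 2] (m : ℕ) (Q : QuadraticForm F W) (ε : ℤ) (hε : ε = 1 ∨ ε = -1)
    (hT : Typ ε m Q) (X : End F W) (hX : X * X = 1) (hP : PIso Q X) (h : ε = 1 ∨ Odd m) :
    Fx Q X := by
  have hT0 := hT
  obtain ⟨hm, hnd, hW, -⟩ := hT0
  obtain ⟨Q₁, hS1, hI1⟩ := H45SqInvEx.exists_inv Q hnd X hX hP
  have hnd1 : (polarBilin Q₁).Nondegenerate := H45SqTw.nondeg_of_sp Q Q₁ hS1 hnd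
  have hP1 : PIso Q₁ X := fun u v => by rw [hS1, hS1, hP]
  by_contra hcon
  set K := LinearMap.ker (X - 1) with hKdef
  have hmemK : ∀ k ∈ K, X k = k := by
    intro k hk
    have : (X - 1) k = 0 := hk
    rw [LinearMap.sub_apply, Module.End.one_apply, sub_eq_zero] at this
    exact this
  have hall : ∀ k ∈ K, Typ (-ε) m (tw Q₁ k) := by
    intro k hk
    have hs : SP Q₁ (tw Q₁ k) := H45SqTw.sp_tw Q₁ k
    have hi : QIso (tw Q₁ k) X := H45SqTw.qiso_tw Q₁ X k hI1 (hmemK k hk)
    have hn : (polarBilin (tw Q₁ k)).Nondegenerate := H45SqTw.nondeg_of_sp _ _ hs hnd1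
    have hnot : ¬ Typ ε m (tw Q₁ k) := by
      intro ht
      exact hcon ⟨tw Q₁ k, fun u v => by rw [hs, hS1], hi, H45SqCls.isom_of_typ ε hε m _ _ hT ht⟩
    rcases H45SqCls.dich m hm hW (tw Q₁ k) hn with h1 | h1
    · rcases hε with rfl | rfl
      · exact absurd h1 hnot
      · simpa using h1
    · rcases hε with rfl | rfl
      · exact h1
      · exact absurd h1 hnot
  obtain ⟨hk1, hk2⟩ := H45SqKer.ker_perp Q₁ hnd1 X hX hP1
  have hfin := H45SqAvgFin.avg_fin m hm Q₁ hnd1 hW (-ε)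
    (by rcases hε with rfl | rfl <;> simp) K (by rw [hk1]; exact hk2) hall
  obtain ⟨e1, e2, e3⟩ := hfin
  rcases h with h | h
  · rw [h] at e1; norm_num at e1
  · have h0 : ∀ v, polar Q₁ v (X v) = 0 := by
      intro v
      have hv : (X - 1) v ∈ LinearMap.BilinForm.orthogonal (polarBilin Q₁) K := by
        rw [hk1]; exact LinearMap.mem_range_self _ v
      have h1 := e2 _ hv
      have h2 := hI1 v
      have h3 : X v = v + (X - 1) v := by
        rw [LinearMap.sub_apply, Module.End.one_apply]; abel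
      have h4 : Q₁ (X v) = Q₁ v + Q₁ ((X - 1) v) + polar Q₁ v ((X - 1) v) := by
        conv_lhs => rw [h3]
        rw [polar]; ring
      rw [h2, h1] at h4
      have h5 : polar Q₁ v ((X - 1) v) = 0 := by linear_combination -h4
      have h6 : polar Q₁ v ((X - 1) v) = polar Q₁ v (X v) - polar Q₁ v v := by
        rw [LinearMap.sub_apply, Module.End.one_apply, polar_sub_right]
      have h7 : polar Q₁ v v = 0 := by
        rw [polar_self]
        have : (2 : F) = 0 := CharTwo.two_eq_zero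
        rw [two_smul]
        exact CharTwo.add_self_eq_zero _
      rw [h6, h7, sub_zero] at h5
      exact h5
    have := H45SqEven.even_of m Q₁ hnd1 hW X hX hP1 h0 e3
    exact (Nat.not_even_iff_odd.2 h) this

/-- assembly: a transformation forcing plus type fixes no form of minus type. -/
theorem not_fx (m : ℕ) (Q : QuadraticForm F W) (hT : Typ (-1) m Q) (X : End F W)
    (h : FP Q m X) : ¬ Fx Q X := by
  rintro ⟨Q', hS, hI, hiso⟩
  obtain ⟨U, hU, h0⟩ := h Q' hS hI
  have hT' := Helper45OspStd.typ_of_isom Q Q' hiso _ _ hT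
  exact H45SqCls.typ_unique m Q' (H45SqLag.typ_of_lag m hT'.1 hT'.2.2.1 Q' hT'.2.1 U hU h0) hT'

end Cfsg.Agent.Lib.H45SqInv
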