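import Cfsg.Agent.Lib.H46BTDefs

set_option autoImplicit false
set_option linter.unusedSectionVars false
set_option linter.unusedVariables false

namespace Cfsg.Agent.Lib.H46BTQ

open Subgroup Cfsg.Lie Cfsg.Lie.ChevalleyDatum
open Cfsg.Agent.Lib.Helper23Grp Cfsg.Agent.Lib.Helper23RG Cfsg.Agent.Lib.Helper23RG.RG
  Cfsg.Agent.Lib.Helper23Table Cfsg.Agent.Lib.Helper23Weyl Cfsg.Agent.Lib.Helper23Chev Cfsg.Agent.Lib.Helper23Shape
  Cfsg.Agent.Lib.Helper22ChevRC Cfsg.Agent.Lib.Helper22ChevBasic Cfsg.Agent.Lib.Helper22ChevPar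
  Cfsg.Agent.Lib.H46BTDefs

variable {D : ChevalleyDatum} (a : ℕ → ℕ → ℤ)

/-! Elementary properties of `ell`, `lvl`, `qf` (unfold the definitions; finite sums). -/

theorem ell_add (x y : Fin D.rank → ℝ) (r : ℕ) : ell D a (x + y) r = ell D a x r + ell D a y r := by
  unfold ell
  rw [← Finset.sum_add_distrib]
  exact Finset.sum_congr rfl (fun i _ => by rw [Pi.add_apply, mul_add])

theorem ell_sub (x y : Fin D.rank → ℝ) (r : ℕ) : ell D a (x - y) r = ell D a x r - ell D a y r := by
  unfold ell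
  rw [← Finset.sum_sub_distrib]
  exact Finset.sum_congr rfl (fun i _ => by rw [Pi.sub_apply, mul_sub])

theorem ell_smul (t : ℝ) (x : Fin D.rank → ℝ) (r : ℕ) : ell D a (t • x) r = t * ell D a x r := by
  unfold ell
  rw [Finset.mul_sum]
  exact Finset.sum_congr rfl (fun i _ => by rw [Pi.smul_apply, smul_eq_mul]; ring)

theorem lvl_add (x y : Fin D.rank → ℝ) : lvl D a (x + y) = lvl D a x + lvl D a y := by
  funext ρ
  rcases ρ with ρ | ρ
  · simp [lvl]
  · simp only [lvl, Sum.elim_inr, Pi.add_apply]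
    exact ell_add a x y _

theorem lvl_smul (t : ℝ) (x : Fin D.rank → ℝ) (ρ : D.Idx) : lvl D a (t • x) ρ = t * lvl D a x ρ := by
  rcases ρ with ρ | ρ
  · simp [lvl]
  · simp only [lvl, Sum.elim_inr]
    exact ell_smul a t x _

theorem ell_continuous (r : ℕ) : Continuous (fun x : Fin D.rank → ℝ => ell D a x r) := by
  unfold ell
  exact continuous_finsetSum _ (fun i _ => continuous_const.mul (continuous_apply i))

theorem lvl_continuous (ρ : D.Idx) : Continuous (fun x : Fin D.rank → ℝ => lvl D a x ρ) := by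
  rcases ρ with ρ | ρ
  · simp only [lvl, Sum.elim_inl]
    exact continuous_const
  · simp only [lvl, Sum.elim_inr]
    exact ell_continuous a _

theorem qf_continuous : Continuous (qf D a) := by
  unfold qf
  exact continuous_finsetSum _ (fun r _ => (ell_continuous a r.val).pow 2)

theorem qf_smul (t : ℝ) (x : Fin D.rank → ℝ) : qf D a (t • x) = t ^ 2 * qf D a x := by
  unfold qf
  rw [Finset.mul_sum]
  exact Finset.sum_congr rfl (fun r _ => by rw [ell_smul]; ring)

theorem qf_par (x y : Fin D.rank → ℝ) : qf D a (x + y) + qf D a (x - y) = 2 * qf D a x + 2 * qf D a y := by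
  unfold qf
  rw [Finset.mul_sum, Finset.mul_sum, ← Finset.sum_add_distrib, ← Finset.sum_add_distrib]
  exact Finset.sum_congr rfl (fun r _ => by rw [ell_add, ell_sub]; ring)

variable {a}

/-- `ha.simple` -/
theorem ell_simple (ha : RCFacts D a) (x : Fin D.rank → ℝ) (i : Fin D.rank) : ell D a x (D.simple i.val) = x i := by
  unfold ell
  rw [Finset.sum_eq_single i]
  · rw [ha.simple i.val i.2 i.val i.2]; simp
  · intro j _ hj
    rw [ha.simple i.val i.2 j.val j.2, if_neg (fun h => hj (Fin.ext h))]; simp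
  · intro h; exact absurd (Finset.mem_univ i) h

/-- the term of the root `D.simple i` (`hT.simple_lt`) in the sum of squares -/
theorem sq_le_qf (hT : TableOK D) (ha : RCFacts D a) (x : Fin D.rank → ℝ) (i : Fin D.rank) : (x i) ^ 2 ≤ qf D a x := by
  unfold qf
  have h := Finset.single_le_sum (f := fun r : Fin D.nroots => (ell D a x r.val) ^ 2)
    (fun r _ => sq_nonneg _) (Finset.mem_univ (⟨D.simple i.val, hT.simple_lt i.val i.2⟩ : Fin D.nroots))
  simp only [ell_simple ha] at h
  exact h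

/-- `ha.neg` -/
theorem ell_neg (ha : RCFacts D a) (x : Fin D.rank → ℝ) {r : ℕ} (hr : r < D.nroots) :
    ell D a x (D.neg r) = - ell D a x r := by
  unfold ell
  rw [← Finset.sum_neg_distrib]
  exact Finset.sum_congr rfl (fun i _ => by rw [ha.neg r hr i.val i.2]; push_cast; ring)

/-- `ha.nonneg` -/
theorem ell_nonneg (ha : RCFacts D a) {x : Fin D.rank → ℝ} (hx : Dom x) {r : ℕ} (hr : r < D.nroots)
    (hp : D.nroots / 2 ≤ r) : 0 ≤ ell D a x r := by
  unfold ell
  exact Finset.sum_nonneg (fun i _ => mul_nonneg (by exact_mod_cast ha.nonneg r hr hp i.val i.2) (hx i))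

/-- `ha.nonpos` -/
theorem ell_nonpos (ha : RCFacts D a) {x : Fin D.rank → ℝ} (hx : Dom x) {r : ℕ} (hp : r < D.nroots / 2) :
    ell D a x r ≤ 0 := by
  unfold ell
  exact Finset.sum_nonpos (fun i _ =>
    mul_nonpos_of_nonpos_of_nonneg (by exact_mod_cast ha.nonpos r hp i.val i.2) (hx i))

/-- a positive root has height at least one: all `a r i ≥ 0` (`ha.nonneg`) and one of them is `≠ 0` (`ha.desc`, `ha.simple`) -/
theorem one_le_ell_one (ha : RCFacts D a) {r : ℕ} (hr : r < D.nroots) (hp : D.nroots / 2 ≤ r) :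
    1 ≤ ell D a (fun _ => (1 : ℝ)) r := by
  have hex : ∃ i, ∃ hi : i < D.rank, a r i ≠ 0 := by
    rcases ha.desc r hr hp with ⟨i, hi, rfl⟩ | ⟨i, hi, h, -⟩
    · exact ⟨i, hi, by rw [ha.simple i hi i hi]; simp⟩
    · exact ⟨i, hi, h⟩
  obtain ⟨i, hi, hne⟩ := hex
  have h0 := ha.nonneg r hr hp
  have h1 : (1 : ℤ) ≤ a r i := by
    have := h0 i hi
    omega
  unfold ell
  have h := Finset.single_le_sum (f := fun j : Fin D.rank => (a r j.val : ℝ) * (1 : ℝ))
    (fun j _ => mul_nonneg (by exact_mod_cast h0 j.val j.2) zero_le_one)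
    (Finset.mem_univ (⟨i, hi⟩ : Fin D.rank))
  refine le_trans ?_ h
  simp only [mul_one]
  exact_mod_cast h1

end Cfsg.Agent.Lib.H46BTQ
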