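import Cfsg.Agent.Lib.H46BTDefs
import Cfsg.Agent.Lib.H46BTQ

set_option autoImplicit false
set_option linter.unusedSectionVars false
set_option linter.unusedVariables false

namespace Cfsg.Agent.Lib.H46BTX

open Subgroup Cfsg.Lie Cfsg.Lie.ChevalleyDatum
open Cfsg.Agent.Lib.Helper23Grp Cfsg.Agent.Lib.Helper23RG Cfsg.Agent.Lib.Helper23RG.RG
  Cfsg.Agent.Lib.Helper23Table Cfsg.Agent.Lib.Helper23Weyl Cfsg.Agent.Lib.Helper23Chev Cfsg.Agent.Lib.Helper23Shape
  Cfsg.Agent.Lib.Helper22ChevRC Cfsg.Agent.Lib.Helper22ChevBasic Cfsg.Agent.Lib.Helper22ChevPar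
  Cfsg.Agent.Lib.H46BTDefs

variable {D : ChevalleyDatum} {a : ℕ → ℕ → ℤ} {F : Type*} [Field F]

theorem ell_chain (ha : RCFacts D a) (x : Fin D.rank → ℝ) {r s k : ℕ} {q : ℕ × ℤ}
    (h : (D.chainEntry r s)[k]? = some q) :
    ell D a x q.1 = ell D a x s + ((k : ℝ) + 1) * ell D a x r := by
  have := (ha.chain r s k q h).2.2.2
  unfold ell
  rw [Finset.mul_sum, ← Finset.sum_add_distrib]
  apply Finset.sum_congr rfl
  intro i _
  rw [this i.val i.2]
  push_cast
  ring

theorem xMat_lev' (ha : RCFacts D a) (hO : Helper22ChevU.OrdFacts D) (x : Fin D.rank → ℝ) (r : Fin D.nroots) (t : F)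
    (ρ c : D.Idx) (hne : ρ ≠ c)
    (h : ∀ k : ℕ, 1 ≤ k → lvl D a x ρ ≠ lvl D a x c + k * ell D a x r.val) : D.xMat F r t ρ c = 0 := by
  rcases c with i | s
  · rcases ρ with i' | u
    · have : i' ≠ i := fun e => hne (by rw [e])
      simp [xMat, this]
    · simp only [xMat, Matrix.of_apply]
      split_ifs with hu
      · exfalso
        subst hu
        exact h 1 le_rfl (by simp [lvl])
      · rfl
  · simp only [xMat, Matrix.of_apply]
    split_ifs with hs hs2
    · rcases ρ with i' | u
      · rfl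
      · have : u ≠ r := fun e => hne (by rw [e, hs])
        simp [this]
    · have hs3 : s.val = D.neg r.val := hs2
      rcases ρ with i' | u
      · exfalso
        apply h 1 le_rfl
        simp only [lvl, Sum.elim_inl, Sum.elim_inr]
        rw [hs3, Cfsg.Agent.Lib.H46BTQ.ell_neg ha x r.2]; simp
      · have hus : u ≠ s := fun e => hne (by rw [e])
        simp only [hus, if_false]
        split_ifs with hu
        · exfalso
          apply h 2 (by norm_num)
          simp only [lvl, Sum.elim_inr]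
          rw [hs3, Cfsg.Agent.Lib.H46BTQ.ell_neg ha x r.2, hu]; push_cast; ring
        · rfl
    · rcases ρ with i' | u
      · rfl
      · have hus : u ≠ s := fun e => hne (by rw [e])
        show (if u = s then (1 : F) else 0) +
          (List.map (fun km => ((km.2 : ℤ) : F) * t ^ km.1) (D.chainCoeff r.val s.val u.val)).sum = 0
        rw [Helper22ChevU.chainCoeff_nil hO r.2]
        · simp [hus]
        · intro q hq hqu
          obtain ⟨k, hk⟩ := List.mem_iff_getElem?.mp hq
          apply h (k + 1) (by omega)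
          simp only [lvl, Sum.elim_inr]
          rw [← hqu]
          have := ell_chain ha x hk
          rw [this]; push_cast; ring

/-- Real valued version of `Helper22ChevPar.xMat_level`. -/
theorem xMat_lev (ha : RCFacts D a) (hO : Helper22ChevU.OrdFacts D) (x : Fin D.rank → ℝ) (r : Fin D.nroots) (t : F)
    (ρ κ : D.Idx) (hne : ρ ≠ κ) (h : D.xMat F r t ρ κ ≠ 0) :
    ∃ k : ℕ, 1 ≤ k ∧ lvl D a x ρ = lvl D a x κ + k * ell D a x r.val := by
  by_contra hcon
  apply h
  apply xMat_lev' ha hO x r t ρ κ hne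
  intro k hk he
  exact hcon ⟨k, hk, he⟩

/-- diagonal entries of `x_r(t)` are `1`. -/
theorem xMat_diag (hT : TableOK D) (hR : Rel D F) (r : Fin D.nroots) (t : F) (ρ : D.Idx) : D.xMat F r t ρ ρ = 1 := by
  have e : ((xg D F r.val t : GL D.Idx F) : Matrix D.Idx D.Idx F) = D.xMat F r t := by
    rw [coe_xg hR]
    simp only [ChevalleyDatum.x, r.2, dif_pos]
  rw [← e]
  by_cases hr : D.nroots / 2 ≤ r.val
  · exact (xg_mem_UTS hT hR hr t).1.2 ρ
  · exact (xg_mem_LTS hT hR (not_le.1 hr) t).1.2 ρ

end Cfsg.Agent.Lib.H46BTX
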