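import Cfsg.Agent.Lib.H46BTDefs
import Cfsg.Agent.Lib.H46BTX

set_option autoImplicit false
set_option linter.unusedSectionVars false
set_option linter.unusedVariables false

namespace Cfsg.Agent.Lib.H46BTXL

open Subgroup Cfsg.Lie Cfsg.Lie.ChevalleyDatum
open Cfsg.Agent.Lib.Helper23Grp Cfsg.Agent.Lib.Helper23RG Cfsg.Agent.Lib.Helper23RG.RG
  Cfsg.Agent.Lib.Helper23Table Cfsg.Agent.Lib.Helper23Weyl Cfsg.Agent.Lib.Helper23Chev Cfsg.Agent.Lib.Helper23Shape
  Cfsg.Agent.Lib.Helper22ChevRC Cfsg.Agent.Lib.Helper22ChevBasic Cfsg.Agent.Lib.Helper22ChevPar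
  Cfsg.Agent.Lib.H46BTDefs

variable {D : ChevalleyDatum} {a : ℕ → ℕ → ℤ} {F : Type*} [Field F] (hT : TableOK D) (hR : Rel D F)

/-- the matrix of the root element (as in the proof of `Helper22ChevPar.radical_inf_levi`) -/
theorem coe_x (r : Fin D.nroots) (t : F) :
    (((rg hT hR).x r t : GL D.Idx F) : Matrix D.Idx D.Idx F) = D.xMat F r t := by
  have := coe_xg hR r.val t
  simp only [ChevalleyDatum.x, r.2, dif_pos] at this
  exact this

/-- from `xMat_lev` (off the diagonal: the level rises by `k * ell ≥ ell`) and `xMat_diag` (the diagonal of `x - 1` vanishes) -/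
theorem x_lev (ha : RCFacts D a) (hO : Helper22ChevU.OrdFacts D) (x : Fin D.rank → ℝ) (r : Fin D.nroots) (t : F)
    (h : 0 ≤ ell D a x r.val) :
    Lev (lvl D a x) (ell D a x r.val) ((((rg hT hR).x r t : GL D.Idx F) : Matrix D.Idx D.Idx F) - 1) := by
  intro ρ κ hne
  rw [coe_x] at hne
  by_cases e : ρ = κ
  · subst e
    rw [Matrix.sub_apply, H46BTX.xMat_diag hT hR, Matrix.one_apply_eq, sub_self] at hne
    exact absurd rfl hne
  · rw [Matrix.sub_apply, Matrix.one_apply_ne e, sub_zero] at hne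
    obtain ⟨k, hk, hl⟩ := H46BTX.xMat_lev ha hO x r t ρ κ e hne
    rw [hl]
    have hk' : (1 : ℝ) ≤ (k : ℝ) := by exact_mod_cast hk
    nlinarith

/-- `x_lev` for `t` and `-t` (`RG.x_inv (rg_ok hT hR)`), with `Lev.mono` -/
theorem x_mem_US (ha : RCFacts D a) (hO : Helper22ChevU.OrdFacts D) (x : Fin D.rank → ℝ) (r : Fin D.nroots) (t : F)
    {c : ℝ} (hc : 0 ≤ c) (h : c ≤ ell D a x r.val) : (rg hT hR).x r t ∈ US (F := F) (lvl D a x) c hc := by
  refine ⟨(x_lev hT hR ha hO x r t (hc.trans h)).mono h, ?_⟩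
  rw [RG.x_inv (rg_ok hT hR)]
  exact (x_lev hT hR ha hO x r (-t) (hc.trans h)).mono h

theorem lev_of_sub_one {f : D.Idx → ℝ} {A : Matrix D.Idx D.Idx F} (h : Lev f 0 (A - 1)) : Lev f 0 A := by
  have e : A = (A - 1) + 1 := by abel
  rw [e]
  exact h.add (Lev_one f)

/-- `g = (g - 1) + 1` -/
theorem x_mem_PS (ha : RCFacts D a) (hO : Helper22ChevU.OrdFacts D) (x : Fin D.rank → ℝ) (r : Fin D.nroots) (t : F)
    (h : 0 ≤ ell D a x r.val) : (rg hT hR).x r t ∈ PS (F := F) (lvl D a x) := by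
  refine ⟨lev_of_sub_one ((x_lev hT hR ha hO x r t h).mono h), ?_⟩
  rw [RG.x_inv (rg_ok hT hR)]
  exact lev_of_sub_one ((x_lev hT hR ha hO x r (-t) h).mono h)

theorem x_tr (ha : RCFacts D a) (hO : Helper22ChevU.OrdFacts D) (x : Fin D.rank → ℝ) (r : Fin D.nroots) (t : F)
    (h : ell D a x r.val = 0) :
    Tr (lvl D a x) (lvl D a x) (((rg hT hR).x r t : GL D.Idx F) : Matrix D.Idx D.Idx F) := by
  intro ρ κ hne
  rw [coe_x] at hne
  by_cases e : ρ = κ
  · rw [e]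
  · obtain ⟨k, hk, hl⟩ := H46BTX.xMat_lev ha hO x r t ρ κ e hne
    rw [hl, h, mul_zero, add_zero]

/-- from `xMat_lev`: `k * 0 = 0` -/
theorem x_mem_LS (ha : RCFacts D a) (hO : Helper22ChevU.OrdFacts D) (x : Fin D.rank → ℝ) (r : Fin D.nroots) (t : F)
    (h : ell D a x r.val = 0) : (rg hT hR).x r t ∈ LS (F := F) (lvl D a x) := by
  refine ⟨x_tr hT hR ha hO x r t h, ?_⟩
  rw [RG.x_inv (rg_ok hT hR)]
  exact x_tr hT hR ha hO x r (-t) h

theorem tr_of_DG {f : D.Idx → ℝ} {A : Matrix D.Idx D.Idx F} (h : DG A) : Tr f f A := by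
  intro ρ κ hne
  by_cases e : ρ = κ
  · rw [e]
  · exact absurd (h.1 ρ κ e) hne

/-- `H ≤ DGS` (`H_le_DGS hT hR`): diagonal matrices -/
theorem H_le_LS (f : D.Idx → ℝ) : (rg hT hR).H ≤ LS (F := F) f := by
  intro g hg
  have h := H_le_DGS hT hR hg
  exact ⟨tr_of_DG h.1, tr_of_DG h.2⟩

theorem LS_le_PS (f : D.Idx → ℝ) : LS (F := F) f ≤ PS f := by
  intro g hg
  exact ⟨hg.1.lev, hg.2.lev⟩

/-- the entry `-t^2` of `x_r(t)` in row `r`, column `-r` (unfold `xMat`; `-r ≠ r` because exactly one of them is positive: `hT.neg_pos`) -/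
theorem x_entry (r : Fin D.nroots) (t : F) :
    (((rg hT hR).x r t : GL D.Idx F) : Matrix D.Idx D.Idx F) (Sum.inr r) (Sum.inr ((rg hT hR).neg r)) = -(t ^ 2) := by
  rw [coe_x]
  have hne : (rg hT hR).neg r ≠ r := by
    intro e
    have e' : D.neg r.val = r.val := congrArg Fin.val e
    have := hT.neg_pos r.val r.2
    rw [e'] at this
    omega
  have hv : ((rg hT hR).neg r).val = D.negIdx.getD r.val 0 := rfl
  simp only [ChevalleyDatum.xMat, Matrix.of_apply]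
  rw [if_neg hne, if_pos hv, if_neg (Ne.symm hne), if_pos trivial]

end Cfsg.Agent.Lib.H46BTXL
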