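import Cfsg.Agent.Lib.H46BTDefs
import Cfsg.Agent.Lib.H46BTXL

set_option autoImplicit false
set_option linter.unusedSectionVars false
set_option linter.unusedVariables false

namespace Cfsg.Agent.Lib.H46BTB

open Subgroup Cfsg.Lie Cfsg.Lie.ChevalleyDatum
open Cfsg.Agent.Lib.Helper23Grp Cfsg.Agent.Lib.Helper23RG Cfsg.Agent.Lib.Helper23RG.RG
  Cfsg.Agent.Lib.Helper23Table Cfsg.Agent.Lib.Helper23Weyl Cfsg.Agent.Lib.Helper23Chev Cfsg.Agent.Lib.Helper23Shape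
  Cfsg.Agent.Lib.Helper22ChevRC Cfsg.Agent.Lib.Helper22ChevBasic Cfsg.Agent.Lib.Helper22ChevPar
  Cfsg.Agent.Lib.H46BTDefs

variable {D : ChevalleyDatum} {a : ℕ → ℕ → ℤ} {F : Type*} [Field F] (hT : TableOK D) (hR : Rel D F)

/-- `B = U ⊔ H`, `U = closure {x r t | r positive}`: `closure_le`, `x_mem_PS` with `H46BTQ.ell_nonneg`, `H_le_LS`, `LS_le_PS`. -/
theorem B_le_PS (ha : RCFacts D a) (hO : Helper22ChevU.OrdFacts D) {x : Fin D.rank → ℝ} (hx : Dom x) :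
    (rg hT hR).B ≤ PS (F := F) (lvl D a x) := by
  refine sup_le ?_ ((H46BTXL.H_le_LS hT hR _).trans (H46BTXL.LS_le_PS _))
  show Subgroup.closure _ ≤ _
  rw [Subgroup.closure_le]
  rintro _ ⟨r, t, hr, rfl⟩
  exact H46BTXL.x_mem_PS hT hR ha hO x r t (H46BTQ.ell_nonneg ha hx r.2 hr)

/-- `closure_le`, `x_mem_US` with `H46BTQ.one_le_ell_one` -/
theorem U_le_US (ha : RCFacts D a) (hO : Helper22ChevU.OrdFacts D) :
    (rg hT hR).U ≤ US (F := F) (lvl D a (fun _ => (1 : ℝ))) 1 zero_le_one := by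
  show Subgroup.closure _ ≤ _
  rw [Subgroup.closure_le]
  rintro _ ⟨r, t, hr, rfl⟩
  exact H46BTXL.x_mem_US hT hR ha hO _ r t zero_le_one (H46BTQ.one_le_ell_one ha r.2 hr)

end Cfsg.Agent.Lib.H46BTB
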