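import Mathlib
import Cfsg.Agent.Lib.Helper46DZ2

set_option autoImplicit false
set_option linter.unusedSectionVars false
set_option linter.unusedVariables false

namespace Cfsg.Agent.Lib.H46BTBlk

open Cfsg

section Aux

variable {G : Type*} [Group G] [Finite G] {p : ℕ} [Fact p.Prime] {M : Ideal AlgInt}

/-- every block has defect zero or full defect. -/
theorem defect_dichotomy (hM : IsPModular p M)
    (hrad : ∀ Q : Subgroup G, IsPGroup p Q → Q ≠ ⊥ →
      (Cfsg.pCore p (Subgroup.normalizer (Q : Set G))).map (Subgroup.normalizer (Q : Set G)).subtype = Q →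
      ∀ x : G, ¬ p ∣ orderOf x → (∀ d ∈ Q, d * x = x * d) → x = 1)
    {B : Set (IrrCharacter G)} (hB : IsPBlock M B) :
    blockDefect p B = 0 ∨ blockDefect p B = (Nat.card G).factorization p := by
  classical
  have : Fintype G := Fintype.ofFinite _
  obtain ⟨D, hD⟩ := Cfsg.Agent.Lib.Helper20Induced.exists_defectGroup hM hB
  have hcard := Cfsg.Agent.S0908.result p M hM B hB D hD
  by_cases h0 : blockDefect p B = 0
  · exact Or.inl h0
  right
  have hp := (Fact.out : p.Prime)
  have hDp : IsPGroup p D := IsPGroup.of_card hcard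
  have hD1 : D ≠ ⊥ := by
    intro hb
    rw [hb, Subgroup.card_bot] at hcard
    have := Nat.one_lt_pow h0 hp.one_lt
    omega
  obtain ⟨P, hDP⟩ := hDp.exists_le_sylow
  obtain ⟨x, hx, ⟨S, hS⟩, -⟩ := Cfsg.Agent.S0956.result p M hM B hB D hD P hDP
  have hrad' := Cfsg.Agent.S0955.result p M hM B hB D hD
  have hcomm : ∀ d ∈ D, d * x = x * d := by
    intro d hd
    rw [← hS] at hd
    obtain ⟨c, -, rfl⟩ := hd
    have := c.2
    rw [Subgroup.mem_centralizer_iff] at this
    exact (this x rfl).symm
  have hxc := hrad D hDp hD1 hrad' x hx hcomm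
  have hC : Subgroup.centralizer ({x} : Set G) = ⊤ := by
    rw [eq_top_iff]
    intro g _
    rw [Subgroup.mem_centralizer_iff]
    intro h hh
    rw [Set.mem_singleton_iff] at hh
    subst hh
    rw [hxc]; simp
  have h1 : Nat.card D = Nat.card S := by
    rw [← hS]
    exact Subgroup.card_map_of_injective (Subgroup.subtype_injective _)
  have h2 := S.card_eq_multiplicity
  have h3 : Nat.card (Subgroup.centralizer ({x} : Set G)) = Nat.card G := by
    rw [hC, Subgroup.card_top]
  rw [h3] at h2
  have h4 : p ^ blockDefect p B = p ^ (Nat.card G).factorization p := by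
    rw [← hcard, h1]; exact h2
  exact Nat.pow_right_injective hp.two_le h4

/-- there is exactly one block of full defect. -/
theorem card_full_defect (hM : IsPModular p M) (hpos : 0 < (Nat.card G).factorization p)
    (hrad : ∀ Q : Subgroup G, IsPGroup p Q → Q ≠ ⊥ →
      (Cfsg.pCore p (Subgroup.normalizer (Q : Set G))).map (Subgroup.normalizer (Q : Set G)).subtype = Q →
      ∀ x : G, ¬ p ∣ orderOf x → (∀ d ∈ Q, d * x = x * d) → x = 1) :
    Nat.card {B : Set (IrrCharacter G) // IsPBlock M B ∧ blockDefect p B = (Nat.card G).factorization p} = 1 := by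
  classical
  have : Fintype G := Fintype.ofFinite _
  have hp := (Fact.out : p.Prime)
  obtain ⟨P⟩ : Nonempty (Sylow p G) := inferInstance
  have e1 : Nat.card {B : Set (IrrCharacter G) // IsPBlock M B ∧ blockDefect p B = (Nat.card G).factorization p} =
      Nat.card {B : Set (IrrCharacter G) // IsPBlock M B ∧ IsDefectGroup p M B (P : Subgroup G)} := by
    apply Nat.card_congr
    apply Equiv.subtypeEquivRight
    intro B
    constructor
    · rintro ⟨hB, hd⟩
      exact ⟨hB, (Cfsg.Agent.Lib.Helper21PS.sylow_defect hM hB hd).1 P⟩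
    · rintro ⟨hB, hD⟩
      refine ⟨hB, ?_⟩
      have h1 := Cfsg.Agent.S0908.result p M hM B hB _ hD
      have h2 := P.card_eq_multiplicity
      rw [h1] at h2
      exact Nat.pow_right_injective hp.two_le h2
  have e2 := Cfsg.Agent.S0953.result p M hM P
  rw [e1, e2]
  set N := Subgroup.normalizer ((P : Subgroup G) : Set G) with hN
  have hP1 : (P : Subgroup G) ≠ ⊥ := by
    intro hb
    have h2 := P.card_eq_multiplicity
    rw [hb, Subgroup.card_bot] at h2
    have := Nat.one_lt_pow hpos.ne' hp.one_lt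
    omega
  have hone : ∀ k : N, ConjClasses.mk k = ConjClasses.mk (1 : N) → k = 1 := by
    intro k h
    rw [ConjClasses.mk_eq_mk_iff_isConj, isConj_comm, isConj_iff] at h
    obtain ⟨c, hc⟩ := h
    rw [← hc]
    simp
  have hmem1 : ∀ n : N, ConjClasses.mk n = ConjClasses.mk (1 : N) → ¬ p ∣ orderOf n ∧
      (n : G) ∈ Subgroup.centralizer ((P : Subgroup G) : Set G) := by
    intro k hk
    rw [hone k hk]
    refine ⟨?_, ?_⟩
    · rw [orderOf_one]
      exact fun h => hp.one_lt.ne' (Nat.dvd_one.1 h)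
    · exact Subgroup.one_mem _
  rw [Nat.card_eq_one_iff_unique]
  refine ⟨⟨?_⟩, ⟨⟨ConjClasses.mk (1 : N), hmem1⟩⟩⟩
  have key : ∀ C : {C : ConjClasses N // ∀ n : N, ConjClasses.mk n = C → ¬ p ∣ orderOf n ∧
      (n : G) ∈ Subgroup.centralizer ((P : Subgroup G) : Set G)}, C.1 = ConjClasses.mk (1 : N) := by
    rintro ⟨C, hC⟩
    obtain ⟨k, rfl⟩ := ConjClasses.exists_rep C
    obtain ⟨hk1, hk2⟩ := hC k rfl
    -- a block with defect group `P` exists
    have hne : Nonempty {B : Set (IrrCharacter G) // IsPBlock M B ∧ IsDefectGroup p M B (P : Subgroup G)} := by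
      have h1 : 0 < Nat.card {C : ConjClasses N // ∀ n : N, ConjClasses.mk n = C → ¬ p ∣ orderOf n ∧
          (n : G) ∈ Subgroup.centralizer ((P : Subgroup G) : Set G)} := by
        have : Nonempty {C : ConjClasses N // ∀ n : N, ConjClasses.mk n = C → ¬ p ∣ orderOf n ∧
          (n : G) ∈ Subgroup.centralizer ((P : Subgroup G) : Set G)} := ⟨⟨_, hC⟩⟩
        exact Nat.card_pos
      rw [← e2] at h1
      exact (Nat.card_pos_iff.1 h1).1
    obtain ⟨⟨B, hB, hD⟩⟩ := hne
    have hrad' := Cfsg.Agent.S0955.result p M hM B hB _ hD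
    have hkc : (k : G) = 1 := by
      apply hrad (P : Subgroup G) P.2 hP1 hrad'
      · rwa [Subgroup.orderOf_coe]
      · intro d hd
        rw [Subgroup.mem_centralizer_iff] at hk2
        exact hk2 d hd
    have : k = 1 := Subtype.ext hkc
    show ConjClasses.mk k = ConjClasses.mk 1
    rw [this]
  intro C C'
  apply Subtype.ext
  rw [key C, key C']

/-- exactly one block of defect zero. -/
theorem card_defect_zero (hM : IsPModular p M)
    (hex : ∃ χ : IrrCharacter G, (charDegree (χ : G → ℂ)).factorization p = (Nat.card G).factorization p)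
    (huniq : ∀ χ χ' : G → ℂ, IsIrrCharacter G χ → IsIrrCharacter G χ' →
      (charDegree χ).factorization p = (Nat.card G).factorization p →
      (charDegree χ').factorization p = (Nat.card G).factorization p → χ = χ') :
    Nat.card {B : Set (IrrCharacter G) // IsPBlock M B ∧ blockDefect p B = 0} = 1 := by
  classical
  have : Fintype G := Fintype.ofFinite _
  have hp := (Fact.out : p.Prime)
  have hprime := hM.2.1.isPrime
  rw [Nat.card_eq_one_iff_unique]
  constructor
  · constructor
    rintro ⟨B, hB, h0⟩ ⟨B', hB', h0'⟩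
    apply Subtype.ext
    show B = B'
    obtain ⟨χ, rfl⟩ := (Cfsg.Agent.Lib.Helper81Defect.blockDefect_eq_zero_iff hM hB).1 h0
    obtain ⟨χ', rfl⟩ := (Cfsg.Agent.Lib.Helper81Defect.blockDefect_eq_zero_iff hM hB').1 h0'
    have h1 : blockOf M (χ : G → ℂ) = {χ} :=
      (Cfsg.Agent.Lib.Helper81Block.isPBlock_eq_blockOf hB (Set.mem_singleton χ)).symm
    have h1' : blockOf M (χ' : G → ℂ) = {χ'} :=
      (Cfsg.Agent.Lib.Helper81Block.isPBlock_eq_blockOf hB' (Set.mem_singleton χ')).symm
    rw [← Cfsg.Agent.Lib.Helper81Orth2.defect_zero_iff hM, Cfsg.Agent.Lib.Helper81Defect.not_dvd_div_iff hp] at h1 h1'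
    have := huniq χ χ' χ.2 χ'.2 h1 h1'
    rw [Subtype.ext this]
  · obtain ⟨χ, hχ⟩ := hex
    have h1 : blockOf M (χ : G → ℂ) = {χ} := by
      rw [← Cfsg.Agent.Lib.Helper81Orth2.defect_zero_iff hM, Cfsg.Agent.Lib.Helper81Defect.not_dvd_div_iff hp]
      exact hχ
    exact ⟨⟨blockOf M (χ : G → ℂ), ⟨χ, rfl⟩,
      (Cfsg.Agent.Lib.Helper81Defect.blockDefect_eq_zero_iff hM ⟨χ, rfl⟩).2 ⟨χ, h1⟩⟩⟩

end Aux

/-- ABSTRACT BLOCK COUNT.  COPY `Helper46DZ2.defect_dichotomy`, `card_full_defect`, `card_defect_zero`, `card_blocks` (lines 155-372 of that file) with `SLn` replaced by `G`,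
`central_of_radical` by `hrad`, the centre by the trivial group (the only class of `p`-regular elements of `N_G(P)` centralising the Sylow subgroup `P` is `{1}`, so `card_full_defect = 1`),
`exists_dz` by `hex`, `unique_dz` by `huniq`, `fac_pos` by `hpos`. -/
theorem card_blocks_two {G : Type*} [Group G] [Finite G] (p : ℕ) [Fact p.Prime] {M : Ideal AlgInt} (hM : IsPModular p M)
    (hpos : 0 < (Nat.card G).factorization p)
    (hrad : ∀ Q : Subgroup G, IsPGroup p Q → Q ≠ ⊥ →
      (Cfsg.pCore p (Subgroup.normalizer (Q : Set G))).map (Subgroup.normalizer (Q : Set G)).subtype = Q →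
      ∀ x : G, ¬ p ∣ orderOf x → (∀ d ∈ Q, d * x = x * d) → x = 1)
    (hex : ∃ χ : IrrCharacter G, (charDegree (χ : G → ℂ)).factorization p = (Nat.card G).factorization p)
    (huniq : ∀ χ χ' : G → ℂ, IsIrrCharacter G χ → IsIrrCharacter G χ' →
      (charDegree χ).factorization p = (Nat.card G).factorization p →
      (charDegree χ').factorization p = (Nat.card G).factorization p → χ = χ') :
    Nat.card {B : Set (IrrCharacter G) // IsPBlock M B} = 2 := by
  have e : (2 : ℕ) = Nat.card {B : Set (IrrCharacter G) // IsPBlock M B ∧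
      blockDefect p B = (Nat.card G).factorization p} +
      Nat.card {B : Set (IrrCharacter G) // IsPBlock M B ∧ blockDefect p B = 0} := by
    rw [card_full_defect hM hpos hrad, card_defect_zero hM hex huniq]
  rw [e]
  have hfin : Finite (IrrCharacter G) := inferInstance
  rw [← Nat.card_sum]
  apply Nat.card_congr
  refine Equiv.ofBijective (fun B => ?_) ⟨?_, ?_⟩
  · exact if h : blockDefect p B.1 = 0 then Sum.inr ⟨B.1, B.2, h⟩
      else Sum.inl ⟨B.1, B.2, (defect_dichotomy hM hrad B.2).resolve_left h⟩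
  · intro B B' h
    apply Subtype.ext
    dsimp only at h
    split_ifs at h with h1 h2 h2
    · exact congrArg (fun x : {B : Set (IrrCharacter G) // IsPBlock M B ∧ blockDefect p B = 0} => x.1)
        (Sum.inr.inj h)
    · exact congrArg (fun x : {B : Set (IrrCharacter G) // IsPBlock M B ∧
        blockDefect p B = (Nat.card G).factorization p} => x.1) (Sum.inl.inj h)
  · rintro (⟨B, hB, hd⟩ | ⟨B, hB, hd⟩)
    · refine ⟨⟨B, hB⟩, ?_⟩
      have : ¬ blockDefect p B = 0 := by omega
      simp only [this, dite_false]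
    · refine ⟨⟨B, hB⟩, ?_⟩
      simp only [hd, dite_true]

end Cfsg.Agent.Lib.H46BTBlk
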