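import Cfsg.Agent.Lib.H46BTDefs
import Cfsg.Agent.Lib.H46BTB

set_option autoImplicit false
set_option linter.unusedSectionVars false
set_option linter.unusedVariables false

namespace Cfsg.Agent.Lib.H46BTIneq

open Subgroup Cfsg.Lie Cfsg.Lie.ChevalleyDatum
open Cfsg.Agent.Lib.Helper23Grp Cfsg.Agent.Lib.Helper23RG Cfsg.Agent.Lib.Helper23RG.RG
  Cfsg.Agent.Lib.Helper23Table Cfsg.Agent.Lib.Helper23Weyl Cfsg.Agent.Lib.Helper23Chev Cfsg.Agent.Lib.Helper23Shape
  Cfsg.Agent.Lib.Helper22ChevRC Cfsg.Agent.Lib.Helper22ChevBasic Cfsg.Agent.Lib.Helper22ChevPar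
  Cfsg.Agent.Lib.H46BTDefs

variable {D : ChevalleyDatum} {a : ℕ → ℕ → ℤ} {F : Type*} [Field F] (hT : TableOK D) (hR : Rel D F)

/-- If `b ∈ B` conjugates `x_r(t)` (`r` positive) to `x_s(t')`, `t' ≠ 0`, then `ell x r ≤ 2 * ell x s` for every dominant `x`. -/
theorem ineq (ha : RCFacts D a) (hO : Helper22ChevU.OrdFacts D) {x : Fin D.rank → ℝ} (hx : Dom x) {b : GL D.Idx F}
    (hb : b ∈ (rg hT hR).B) {r s : Fin D.nroots} {t t' : F} (ht' : t' ≠ 0) (hr : (rg hT hR).pos r)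
    (h : b * (rg hT hR).x r t * b⁻¹ = (rg hT hR).x s t') : ell D a x r.val ≤ 2 * ell D a x s.val := by
  have ok := rg_ok hT hR
  have h0 : 0 ≤ ell D a x r.val := H46BTQ.ell_nonneg ha hx r.2 hr
  have h1 := H46BTXL.x_lev hT hR ha hO x r t h0
  have hbP := H46BTB.B_le_PS hT hR ha hO hx hb
  have h2 : (((rg hT hR).x s t' : GL D.Idx F) : Matrix D.Idx D.Idx F) - 1 =
      (b : Matrix D.Idx D.Idx F) * ((((rg hT hR).x r t : GL D.Idx F) : Matrix D.Idx D.Idx F) - 1) *
        ((b⁻¹ : GL D.Idx F) : Matrix D.Idx D.Idx F) := by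
    rw [← h, Units.val_mul, Units.val_mul, mul_sub, sub_mul, mul_one]
    congr 1
    rw [← Units.val_mul, mul_inv_cancel, Units.val_one]
  have h3 : Lev (lvl D a x) (ell D a x r.val) ((((rg hT hR).x s t' : GL D.Idx F) : Matrix D.Idx D.Idx F) - 1) := by
    rw [h2]
    have := (hbP.1.mul h1).mul hbP.2
    simpa using this
  have hne : (rg hT hR).neg s ≠ s := by
    intro e
    have := ok.pos_neg s
    rw [e] at this
    tauto
  have h4 := h3 (Sum.inr s) (Sum.inr ((rg hT hR).neg s)) (by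
    rw [Matrix.sub_apply, H46BTXL.x_entry, Matrix.one_apply_ne (by
      intro e
      exact hne (Sum.inr.inj e).symm), sub_zero]
    exact neg_ne_zero.2 (pow_ne_zero 2 ht'))
  have h5 : lvl D a x (Sum.inr ((rg hT hR).neg s)) = - ell D a x s.val := H46BTQ.ell_neg ha x s.2
  have h6 : lvl D a x (Sum.inr s) = ell D a x s.val := rfl
  rw [h5, h6] at h4
  linarith

/-- `ell` of a basis vector -/
theorem ell_single (k : Fin D.rank) (r : ℕ) : ell D a (Pi.single k (1 : ℝ)) r = (a r k.val : ℝ) := by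
  unfold ell
  rw [Finset.sum_eq_single k]
  · simp
  · intro i _ hi
    simp [Pi.single_eq_of_ne hi]
  · intro h; exact absurd (Finset.mem_univ k) h

theorem dom_single (k : Fin D.rank) : Dom (Pi.single k (1 : ℝ) : Fin D.rank → ℝ) := by
  intro i
  by_cases h : i = k
  · subst h; simp
  · simp [Pi.single_eq_of_ne h]

end Cfsg.Agent.Lib.H46BTIneq
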