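import Cfsg.Agent.Lib.H46BTDefs
import Cfsg.Agent.Lib.H46BTIneq

set_option autoImplicit false
set_option linter.unusedSectionVars false
set_option linter.unusedVariables false

namespace Cfsg.Agent.Lib.H46BTCoord

open Subgroup Cfsg.Lie Cfsg.Lie.ChevalleyDatum
open Cfsg.Agent.Lib.Helper23Grp Cfsg.Agent.Lib.Helper23RG Cfsg.Agent.Lib.Helper23RG.RG
  Cfsg.Agent.Lib.Helper23Table Cfsg.Agent.Lib.Helper23Weyl Cfsg.Agent.Lib.Helper23Chev Cfsg.Agent.Lib.Helper23Shape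
  Cfsg.Agent.Lib.Helper22ChevRC Cfsg.Agent.Lib.Helper22ChevBasic Cfsg.Agent.Lib.Helper22ChevPar
  Cfsg.Agent.Lib.H46BTDefs

variable {D : ChevalleyDatum} {a : ℕ → ℕ → ℤ} {F : Type*} [Field F] (hT : TableOK D) (hR : Rel D F)

/-- a positive root has a positive coordinate -/
theorem exists_pos_coord (ha : RCFacts D a) {r : ℕ} (hr : r < D.nroots) (hp : D.nroots / 2 ≤ r) :
    ∃ i < D.rank, 0 < a r i := by
  rcases ha.desc r hr hp with ⟨i, hi, e⟩ | ⟨i, hi, h1, _⟩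
  · refine ⟨i, hi, ?_⟩
    rw [e, ha.simple i hi i hi, if_pos rfl]
    exact one_pos
  · exact ⟨i, hi, lt_of_le_of_ne (ha.nonneg r hr hp i hi) (Ne.symm h1)⟩

/-- Let `n` act on the roots by `σ`, `b ∈ B`, and let `n * b` commute with `x_r(1)`, `r` a positive root.  Then the coordinates of `s = σ⁻¹ r` and of `r`
are within a factor two of each other. -/
theorem coord (ha : RCFacts D a) (hO : Helper22ChevU.OrdFacts D) {n b : GL D.Idx F} {σ : Equiv.Perm (Fin D.nroots)}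
    (hM : (rg hT hR).Mon n σ) (hb : b ∈ (rg hT hR).B) {r : Fin D.nroots} (hr : (rg hT hR).pos r)
    (h : (n * b) * (rg hT hR).x r 1 = (rg hT hR).x r 1 * (n * b)) (k : Fin D.rank) :
    a r.val k.val ≤ 2 * a (σ⁻¹ r).val k.val ∧ a (σ⁻¹ r).val k.val ≤ 2 * a r.val k.val := by
  have ok := rg_ok hT hR
  obtain ⟨_, c, hc0, _, hc⟩ := hM.inv
  have h1 : b * (rg hT hR).x r 1 * b⁻¹ = (rg hT hR).x (σ⁻¹ r) (c r * 1) := by
    rw [← hc r 1, inv_inv]
    have : b * (rg hT hR).x r 1 = n⁻¹ * (rg hT hR).x r 1 * (n * b) := by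
      rw [mul_assoc, ← h]; group
    rw [this]; group
  have hne : c r * 1 ≠ 0 := mul_ne_zero (hc0 r) one_ne_zero
  have key1 : ∀ k : Fin D.rank, a r.val k.val ≤ 2 * a (σ⁻¹ r).val k.val := by
    intro k
    have := H46BTIneq.ineq hT hR ha hO (H46BTIneq.dom_single k) hb hne hr h1
    rw [H46BTIneq.ell_single, H46BTIneq.ell_single] at this
    exact_mod_cast this
  have hs : (rg hT hR).pos (σ⁻¹ r) := by
    obtain ⟨i, hi, hpos⟩ := exists_pos_coord ha r.2 hr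
    have h2 := key1 ⟨i, hi⟩
    show D.nroots / 2 ≤ (σ⁻¹ r).val
    by_contra hlt
    have h3 := ha.nonpos (σ⁻¹ r).val (by omega) i hi
    simp only at h2
    omega
  refine ⟨key1 k, ?_⟩
  have h4 : b⁻¹ * (rg hT hR).x (σ⁻¹ r) (c r * 1) * b⁻¹⁻¹ = (rg hT hR).x r 1 := by
    rw [← h1]; group
  have := H46BTIneq.ineq hT hR ha hO (H46BTIneq.dom_single k) (inv_mem hb) one_ne_zero hs h4
  rw [H46BTIneq.ell_single, H46BTIneq.ell_single] at this
  exact_mod_cast this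

end Cfsg.Agent.Lib.H46BTCoord
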