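import Cfsg.Agent.Lib.H46BTDefs
import Cfsg.Agent.Lib.H46BTQ

set_option autoImplicit false
set_option linter.unusedSectionVars false
set_option linter.unusedVariables false

namespace Cfsg.Agent.Lib.H46BTLin

open Subgroup Cfsg.Lie Cfsg.Lie.ChevalleyDatum
open Cfsg.Agent.Lib.Helper23Grp Cfsg.Agent.Lib.Helper23RG Cfsg.Agent.Lib.Helper23RG.RG
  Cfsg.Agent.Lib.Helper23Table Cfsg.Agent.Lib.Helper23Weyl Cfsg.Agent.Lib.Helper23Chev Cfsg.Agent.Lib.Helper23Shape
  Cfsg.Agent.Lib.Helper22ChevRC Cfsg.Agent.Lib.Helper22ChevBasic Cfsg.Agent.Lib.Helper22ChevPar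
  Cfsg.Agent.Lib.H46BTDefs

variable {D : ChevalleyDatum} {a : ℕ → ℕ → ℤ} {F : Type*} [Field F] (hT : TableOK D) (hR : Rel D F)

/-- `m = 1` (Kronecker delta) -/
theorem LinC_one : LinC D a 1 := by
  refine ⟨fun i k => if i = k then 1 else 0, fun r k => ?_⟩
  simp

/-- product of the two integer matrices: `a (τ (τ' r)) k = ∑ i, a (τ' r) i * m i k = ∑ i, (∑ l, a r l * m' l i) * m i k` -/
theorem LinC.mul {τ τ' : Equiv.Perm (Fin D.nroots)} (h : LinC D a τ) (h' : LinC D a τ') : LinC D a (τ * τ') := by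
  obtain ⟨m, hm⟩ := h
  obtain ⟨m', hm'⟩ := h'
  refine ⟨fun l k => ∑ i, m' l i * m i k, fun r k => ?_⟩
  rw [Equiv.Perm.mul_apply, hm]
  simp only [hm', Finset.sum_mul, Finset.mul_sum]
  rw [Finset.sum_comm]
  apply Finset.sum_congr rfl
  intro l _
  apply Finset.sum_congr rfl
  intro i _
  ring

/-- `m i k = a (D.reflectRoot j (D.simple i)) k`.  For `k ≠ j`: `ha.refl` twice and `ha.simple` (`∑ i, a r i * δ_{ik} = a r k`);
for `k = j`: `hL.lin` (`Finset.sum_range` converts the sum over `range D.rank` to a sum over `Fin D.rank`).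
`(reflPerm (rg_ok hT hR) j r).val = D.reflectRoot j r` by `reflPerm_apply` and `rfl`. -/
theorem LinC_refl (ha : RCFacts D a) (hL : RCLin D a) (j : Fin D.rank) : LinC D a (reflPerm (rg_ok hT hR) j) := by
  refine ⟨fun i k => a (D.reflectRoot j.val (D.simple i.val)) k.val, fun r k => ?_⟩
  have e : (reflPerm (rg_ok hT hR) j r).val = D.reflectRoot j.val r.val := rfl
  rw [e]
  by_cases hk : k = j
  · subst hk
    rw [hL.lin k.val k.2 r.val r.2, Finset.sum_range]
  · have hk' : k.val ≠ j.val := fun h => hk (Fin.ext h)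
    rw [ha.refl j.val j.2 r.val r.2 k.val k.2 hk']
    have h1 : ∀ i : Fin D.rank, a r.val i.val * a (D.reflectRoot j.val (D.simple i.val)) k.val
        = if i = k then a r.val i.val else 0 := by
      intro i
      rw [ha.refl j.val j.2 _ (hT.simple_lt i.val i.2) k.val k.2 hk', ha.simple i.val i.2 k.val k.2]
      by_cases hik : i = k
      · subst hik; simp
      · have : k.val ≠ i.val := fun h => hik (Fin.ext h.symm)
        simp [hik, this]
    rw [Finset.sum_congr rfl (fun i _ => h1 i)]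
    simp

/-- `x' i = ∑ k, m i k * x k` -/
theorem LinC.pull {τ : Equiv.Perm (Fin D.nroots)} (h : LinC D a τ) (x : Fin D.rank → ℝ) :
    ∃ x' : Fin D.rank → ℝ, ∀ r : Fin D.nroots, ell D a x' r.val = ell D a x (τ r).val := by
  obtain ⟨m, hm⟩ := h
  refine ⟨fun i => ∑ k, (m i k : ℝ) * x k, fun r => ?_⟩
  unfold ell
  simp only [hm, Finset.mul_sum]
  push_cast
  simp only [Finset.sum_mul]
  rw [Finset.sum_comm]
  apply Finset.sum_congr rfl
  intro l _
  apply Finset.sum_congr rfl
  intro i _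
  ring

end Cfsg.Agent.Lib.H46BTLin
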