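import Cfsg.Agent.Lib.H46BTDefs
import Cfsg.Agent.Lib.H46BTLin

set_option autoImplicit false
set_option linter.unusedSectionVars false
set_option linter.unusedVariables false

namespace Cfsg.Agent.Lib.H46BTNRel

open Subgroup Cfsg.Lie Cfsg.Lie.ChevalleyDatum
open Cfsg.Agent.Lib.Helper23Grp Cfsg.Agent.Lib.Helper23RG Cfsg.Agent.Lib.Helper23RG.RG
  Cfsg.Agent.Lib.Helper23Table Cfsg.Agent.Lib.Helper23Weyl Cfsg.Agent.Lib.Helper23Chev Cfsg.Agent.Lib.Helper23Shape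
  Cfsg.Agent.Lib.Helper22ChevRC Cfsg.Agent.Lib.Helper22ChevBasic Cfsg.Agent.Lib.Helper22ChevPar
  Cfsg.Agent.Lib.H46BTDefs

variable {D : ChevalleyDatum} {a : ℕ → ℕ → ℤ} {F : Type*} [Field F] (hT : TableOK D) (hR : Rel D F)

/-- Take `x'` from `LinC.pull hl x` (`τ = σ⁻¹`): `ell x' r = ell x (σ⁻¹ r)`, so `ell x' (σ r) = ell x r`.
`qf x' = qf x`: reindex the sum by `σ` (`Equiv.sum_comp σ`).  The two `Tr`: case analysis on `ρ κ : D.Idx` (`Sum.inl`/`Sum.inr`) with the three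
clauses of `MN`: mixed entries vanish, `inl/inl` has levels `0 = 0`, and `n (inr u) (inr s) ≠ 0 → u = σ s`. -/
theorem NRel_of {n : GL D.Idx F} {σ : Equiv.Perm (Fin D.nroots)} (hM : (rg hT hR).Mon n σ)
    (h1 : MN (n : Matrix D.Idx D.Idx F) σ) (h2 : MN ((n⁻¹ : GL D.Idx F) : Matrix D.Idx D.Idx F) σ⁻¹)
    (hl : LinC D a σ⁻¹) (x : Fin D.rank → ℝ) : ∃ x', NRel a hT hR n σ x x' := by
  obtain ⟨x', hx'⟩ := Cfsg.Agent.Lib.H46BTLin.LinC.pull hl x
  have he : ∀ r : Fin D.nroots, ell D a x' (σ r).val = ell D a x r.val := by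
    intro r
    rw [hx']; simp
  refine ⟨x', hM, he, ?_, ?_, ?_⟩
  · unfold qf
    rw [← Equiv.sum_comp σ (fun r : Fin D.nroots => (ell D a x' r.val) ^ 2)]
    apply Finset.sum_congr rfl
    intro r _
    rw [he]
  · rintro (i | u) (k | s) hne
    · rfl
    · exact absurd (h1.1 i s) hne
    · exact absurd (h1.2.1 k u) hne
    · have hu : u = σ s := by
        by_contra hu
        exact hne (h1.2.2 s u hu)
      subst hu
      exact he s
  · rintro (i | u) (k | s) hne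
    · rfl
    · exact absurd (h2.1 i s) hne
    · exact absurd (h2.2.1 k u) hne
    · have hu : u = σ⁻¹ s := by
        by_contra hu
        exact hne (h2.2.2 s u hu)
      subst hu
      exact (hx' s).symm

/-- composition (`Mon.mul`, `Tr.mul`, `mul_inv_rev`) -/
theorem NRel.mul {n n' : GL D.Idx F} {σ σ' : Equiv.Perm (Fin D.nroots)} {x x' x'' : Fin D.rank → ℝ}
    (h' : NRel a hT hR n' σ' x' x'') (h : NRel a hT hR n σ x x') : NRel a hT hR (n' * n) (σ' * σ) x x'' := by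
  obtain ⟨a1, a2, a3, a4, a5⟩ := h'
  obtain ⟨b1, b2, b3, b4, b5⟩ := h
  refine ⟨a1.mul b1, fun r => ?_, a3.trans b3, ?_, ?_⟩
  · rw [Equiv.Perm.mul_apply, a2, b2]
  · rw [Units.val_mul]; exact a4.mul b4
  · rw [mul_inv_rev, Units.val_mul]; exact b5.mul a5

end Cfsg.Agent.Lib.H46BTNRel
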