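import Cfsg.Agent.Lib.H46BTDefs
import Cfsg.Agent.Lib.H46BTNRel

set_option autoImplicit false
set_option linter.unusedSectionVars false
set_option linter.unusedVariables false

namespace Cfsg.Agent.Lib.H46BTN

open Subgroup Cfsg.Lie Cfsg.Lie.ChevalleyDatum
open Cfsg.Agent.Lib.Helper23Grp Cfsg.Agent.Lib.Helper23RG Cfsg.Agent.Lib.Helper23RG.RG
  Cfsg.Agent.Lib.Helper23Table Cfsg.Agent.Lib.Helper23Weyl Cfsg.Agent.Lib.Helper23Chev Cfsg.Agent.Lib.Helper23Shape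
  Cfsg.Agent.Lib.Helper22ChevRC Cfsg.Agent.Lib.Helper22ChevBasic Cfsg.Agent.Lib.Helper22ChevPar
  Cfsg.Agent.Lib.H46BTDefs

variable {D : ChevalleyDatum} {a : ℕ → ℕ → ℤ} {F : Type*} [Field F] (hT : TableOK D) (hR : Rel D F)

theorem nn_inv_MN (i : Fin D.rank) :
    MN ((((rg hT hR).nn i)⁻¹ : GL D.Idx F) : Matrix D.Idx D.Idx F) (reflPerm (rg_ok hT hR) i)⁻¹ := by
  have e : ((rg hT hR).nn i)⁻¹ = (((rg hT hR).nn i)⁻¹ * ((rg hT hR).nn i)⁻¹) * (rg hT hR).nn i := by group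
  have h1 := H_le_DGS hT hR (RG.nn_sq_inv_mem (rg_ok hT hR) i)
  rw [e, Units.val_mul]
  have := h1.1.MN.mul (nn_MN hT hR i)
  rw [one_mul] at this
  exact this

theorem N_data (ha : RCFacts D a) (hL : RCLin D a) (rf : Fin D.nroots → Fin D.nroots → Fin D.nroots)
    (pr : Fin D.nroots → Fin D.nroots → ℤ) : ∀ n ∈ (rg hT hR).N,
    ∃ σ ∈ (ws (rg_ok hT hR) rf pr).WJ Set.univ, (rg hT hR).Mon n σ ∧ MN (n : Matrix D.Idx D.Idx F) σ ∧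
      MN ((n⁻¹ : GL D.Idx F) : Matrix D.Idx D.Idx F) σ⁻¹ ∧ LinC D a σ ∧ LinC D a σ⁻¹ := by
  have P_one : ∃ σ ∈ (ws (rg_ok hT hR) rf pr).WJ Set.univ, (rg hT hR).Mon (1 : GL D.Idx F) σ ∧
      MN ((1 : GL D.Idx F) : Matrix D.Idx D.Idx F) σ ∧
      MN (((1 : GL D.Idx F)⁻¹ : GL D.Idx F) : Matrix D.Idx D.Idx F) σ⁻¹ ∧ LinC D a σ ∧ LinC D a σ⁻¹ := by
    have h1 := (DGS D F).one_mem
    refine ⟨1, one_mem _, Mon.one, h1.1.MN, ?_, Cfsg.Agent.Lib.H46BTLin.LinC_one, ?_⟩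
    · rw [inv_one (G := Equiv.Perm (Fin D.nroots))]; exact h1.2.MN
    · rw [inv_one]; exact Cfsg.Agent.Lib.H46BTLin.LinC_one
  have P_mul : ∀ x y : GL D.Idx F,
      (∃ σ ∈ (ws (rg_ok hT hR) rf pr).WJ Set.univ, (rg hT hR).Mon x σ ∧
        MN (x : Matrix D.Idx D.Idx F) σ ∧
        MN ((x⁻¹ : GL D.Idx F) : Matrix D.Idx D.Idx F) σ⁻¹ ∧ LinC D a σ ∧ LinC D a σ⁻¹) →
      (∃ σ ∈ (ws (rg_ok hT hR) rf pr).WJ Set.univ, (rg hT hR).Mon y σ ∧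
        MN (y : Matrix D.Idx D.Idx F) σ ∧
        MN ((y⁻¹ : GL D.Idx F) : Matrix D.Idx D.Idx F) σ⁻¹ ∧ LinC D a σ ∧ LinC D a σ⁻¹) →
      ∃ σ ∈ (ws (rg_ok hT hR) rf pr).WJ Set.univ, (rg hT hR).Mon (x * y) σ ∧
        MN ((x * y : GL D.Idx F) : Matrix D.Idx D.Idx F) σ ∧
        MN (((x * y)⁻¹ : GL D.Idx F) : Matrix D.Idx D.Idx F) σ⁻¹ ∧ LinC D a σ ∧ LinC D a σ⁻¹ := by
    rintro x y ⟨σ, a0, a1, a2, a3, a4, a5⟩ ⟨τ, b0, b1, b2, b3, b4, b5⟩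
    refine ⟨σ * τ, mul_mem a0 b0, a1.mul b1, ?_, ?_, Cfsg.Agent.Lib.H46BTLin.LinC.mul a4 b4, ?_⟩
    · rw [Units.val_mul]; exact a2.mul b2
    · rw [mul_inv_rev, mul_inv_rev, Units.val_mul]; exact b3.mul a3
    · rw [mul_inv_rev]; exact Cfsg.Agent.Lib.H46BTLin.LinC.mul b5 a5
  have P_inv : ∀ x : GL D.Idx F,
      (∃ σ ∈ (ws (rg_ok hT hR) rf pr).WJ Set.univ, (rg hT hR).Mon x σ ∧
        MN (x : Matrix D.Idx D.Idx F) σ ∧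
        MN ((x⁻¹ : GL D.Idx F) : Matrix D.Idx D.Idx F) σ⁻¹ ∧ LinC D a σ ∧ LinC D a σ⁻¹) →
      ∃ σ ∈ (ws (rg_ok hT hR) rf pr).WJ Set.univ, (rg hT hR).Mon x⁻¹ σ ∧
        MN ((x⁻¹ : GL D.Idx F) : Matrix D.Idx D.Idx F) σ ∧
        MN (((x⁻¹)⁻¹ : GL D.Idx F) : Matrix D.Idx D.Idx F) σ⁻¹ ∧ LinC D a σ ∧ LinC D a σ⁻¹ := by
    rintro x ⟨σ, a0, a1, a2, a3, a4, a5⟩
    refine ⟨σ⁻¹, inv_mem a0, a1.inv, a3, ?_, a5, ?_⟩
    · rw [inv_inv, inv_inv]; exact a2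
    · rw [inv_inv]; exact a4
  intro n hn
  rw [N_eq (rg_ok hT hR), sup_eq_closure] at hn
  induction hn using closure_induction with
  | mem x hx =>
    rcases hx with hx | hx
    · have h1 := H_le_DGS hT hR hx
      refine ⟨1, one_mem _, Mon_H (rg_ok hT hR) x hx, h1.1.MN, ?_, Cfsg.Agent.Lib.H46BTLin.LinC_one, ?_⟩
      · rw [inv_one]; exact h1.2.MN
      · rw [inv_one]; exact Cfsg.Agent.Lib.H46BTLin.LinC_one
    · induction hx using closure_induction with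
      | mem y hy =>
        obtain ⟨i, rfl⟩ := hy
        refine ⟨_, WS.s_mem_WJ (W := ws (rg_ok hT hR) rf pr) (Set.mem_univ i), Mon_nn (rg_ok hT hR) i,
          nn_MN hT hR i, nn_inv_MN hT hR i, Cfsg.Agent.Lib.H46BTLin.LinC_refl hT hR ha hL i, ?_⟩
        exact Cfsg.Agent.Lib.H46BTLin.LinC_refl hT hR ha hL i
      | one => exact P_one
      | mul x y _ _ hx hy => exact P_mul x y hx hy
      | inv x _ hx => exact P_inv x hx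
  | one => exact P_one
  | mul x y _ _ hx hy => exact P_mul x y hx hy
  | inv x _ hx => exact P_inv x hx

/-- `N_data` and `NRel_of` -/
theorem exists_NRel (ha : RCFacts D a) (hL : RCLin D a) (n : GL D.Idx F) (hn : n ∈ (rg hT hR).N) :
    ∃ σ, ∀ x, ∃ x', NRel a hT hR n σ x x' := by
  obtain ⟨σ, _, h1, h2, h3, _, h5⟩ := N_data hT hR ha hL (fun r _ => r) (fun _ _ => 0) n hn
  exact ⟨σ, fun x => Cfsg.Agent.Lib.H46BTNRel.NRel_of hT hR h1 h2 h3 h5 x⟩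

/-- `NRel_of` for `nn j` with the explicit permutation -/
theorem NRel_nn (ha : RCFacts D a) (hL : RCLin D a) (j : Fin D.rank) (x : Fin D.rank → ℝ) :
    ∃ x', NRel a hT hR ((rg hT hR).nn j) (reflPerm (rg_ok hT hR) j) x x' :=
  Cfsg.Agent.Lib.H46BTNRel.NRel_of hT hR (Mon_nn (rg_ok hT hR) j) (nn_MN hT hR j) (nn_inv_MN hT hR j)
    (Cfsg.Agent.Lib.H46BTLin.LinC_refl hT hR ha hL j) x

end Cfsg.Agent.Lib.H46BTN
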