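import Cfsg.Agent.Lib.H46BTDefs
import Cfsg.Agent.Lib.H46BTLin

set_option autoImplicit false
set_option linter.unusedSectionVars false
set_option linter.unusedVariables false

namespace Cfsg.Agent.Lib.H46BTSig

open Subgroup Cfsg.Lie Cfsg.Lie.ChevalleyDatum
open Cfsg.Agent.Lib.Helper23Grp Cfsg.Agent.Lib.Helper23RG Cfsg.Agent.Lib.Helper23RG.RG
  Cfsg.Agent.Lib.Helper23Table Cfsg.Agent.Lib.Helper23Weyl Cfsg.Agent.Lib.Helper23Chev Cfsg.Agent.Lib.Helper23Shape
  Cfsg.Agent.Lib.Helper22ChevRC Cfsg.Agent.Lib.Helper22ChevBasic Cfsg.Agent.Lib.Helper22ChevPar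
  Cfsg.Agent.Lib.H46BTDefs

variable {D : ChevalleyDatum} {a : ℕ → ℕ → ℤ} {F : Type*} [Field F] (hT : TableOK D) (hR : Rel D F)
variable {rf : Fin D.nroots → Fin D.nroots → Fin D.nroots} {pr : Fin D.nroots → Fin D.nroots → ℤ}
  (hW : (ws (rg_ok hT hR) rf pr).Ok)

include hW in
/-- ROOT COMBINATORICS. -/
theorem tau_eq_one (ha : RCFacts D a) (hL : RCLin D a) {τ : Equiv.Perm (Fin D.nroots)}
    (hτ : τ ∈ (ws (rg_ok hT hR) rf pr).WJ Set.univ) (hl : LinC D a τ) (i₀ : Fin D.rank)
    (h : ∀ r : Fin D.nroots, (rg hT hR).pos r → a r.val i₀.val ≠ 0 → ∀ k : Fin D.rank,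
      a r.val k.val ≤ 2 * a (τ r).val k.val ∧ a (τ r).val k.val ≤ 2 * a r.val k.val) : τ = 1 := by
  have ok := rg_ok hT hR
  by_contra h1
  obtain ⟨j, _, hneg⟩ := WS.exists_descent hW hτ h1
  apply hneg
  show D.nroots / 2 ≤ (τ ((rg hT hR).simple j)).val
  have pos_of : ∀ (s : Fin D.nroots) (k : Fin D.rank), 0 < a s.val k.val → D.nroots / 2 ≤ s.val := by
    intro s k hk
    by_contra hlt
    have := ha.nonpos s.val (by omega) k k.2
    omega
  have hsj : ∀ i : Fin D.rank, a ((rg hT hR).simple j).val i.val = if i = j then 1 else 0 := by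
    intro i
    have := ha.simple j j.2 i i.2
    show a (D.simple j) i = _
    rw [this]
    by_cases e : i = j
    · rw [if_pos e, if_pos (congrArg Fin.val e)]
    · rw [if_neg e, if_neg (fun e' => e (Fin.ext e'))]
  by_cases hj : j = i₀
  · subst hj
    have h3 : a ((rg hT hR).simple j).val j.val = 1 := by rw [hsj j, if_pos rfl]
    have h2 := (h ((rg hT hR).simple j) (ok.pos_simple j) (by rw [h3]; exact one_ne_zero) j).1
    exact pos_of _ j (by omega)
  · obtain ⟨r, hr, hp, hr1, hr2, hr3⟩ := hL.conn i₀ i₀.2 j j.2 (fun e => hj (Fin.ext e.symm))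
    set R : Fin D.nroots := ⟨r, hr⟩ with hRdef
    set R' := (rg hT hR).refl j R with hR'def
    have hRne : R ≠ (rg hT hR).simple j := by
      intro e
      have h4 := hsj j
      rw [← e, if_pos rfl] at h4
      have h5 : a R.val j.val = 0 := hr2
      omega
    have hp' : (rg hT hR).pos R' := ok.refl_pos j R hp hRne
    have hk : ∀ k : Fin D.rank, k ≠ j → a R'.val k.val = a R.val k.val :=
      fun k hk => ha.refl j j.2 r hr k k.2 (fun e => hk (Fin.ext e))
    have hm : 0 < a R'.val j.val := lt_of_le_of_ne (ha.nonneg R' R'.2 hp' j j.2) (Ne.symm hr3)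
    obtain ⟨μ, hμ⟩ := hl
    have e3 : a (τ ((rg hT hR).simple j)).val j.val = μ j j := by
      rw [hμ, Finset.sum_eq_single j]
      · rw [hsj j, if_pos rfl, one_mul]
      · intro i _ hi
        rw [hsj i, if_neg hi, zero_mul]
      · intro hh; exact absurd (Finset.mem_univ j) hh
    have e4 : a (τ R').val j.val - a (τ R).val j.val = a R'.val j.val * μ j j := by
      rw [hμ R' j, hμ R j, ← Finset.sum_sub_distrib, Finset.sum_eq_single j]
      · have : a R.val j.val = 0 := hr2
        rw [this]; ring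
      · intro i _ hi
        rw [hk i hi]; ring
      · intro hh; exact absurd (Finset.mem_univ j) hh
    have h5 := (h R hp hr1 j).2
    have h5' : a R.val j.val = 0 := hr2
    have h6 := (h R' hp' (by rw [hk i₀ (Ne.symm hj)]; exact hr1) j).1
    have h7 : 0 < a R'.val j.val * μ j j := by rw [← e4]; omega
    have h8 : 0 < μ j j := (mul_pos_iff_of_pos_left hm).1 h7
    exact pos_of _ j (by rw [e3]; exact h8)

end Cfsg.Agent.Lib.H46BTSig
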