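import Cfsg.Agent.Lib.H46BTDefs
import Cfsg.Agent.Lib.H46BTCoord
import Cfsg.Agent.Lib.H46BTSig
import Cfsg.Agent.Lib.H46BTN

set_option autoImplicit false
set_option linter.unusedSectionVars false
set_option linter.unusedVariables false

namespace Cfsg.Agent.Lib.H46BTCB

open Subgroup Cfsg.Lie Cfsg.Lie.ChevalleyDatum
open Cfsg.Agent.Lib.Helper23Grp Cfsg.Agent.Lib.Helper23RG Cfsg.Agent.Lib.Helper23RG.RG
  Cfsg.Agent.Lib.Helper23Table Cfsg.Agent.Lib.Helper23Weyl Cfsg.Agent.Lib.Helper23Chev Cfsg.Agent.Lib.Helper23Shape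
  Cfsg.Agent.Lib.Helper22ChevRC Cfsg.Agent.Lib.Helper22ChevBasic Cfsg.Agent.Lib.Helper22ChevPar
  Cfsg.Agent.Lib.H46BTDefs

variable {D : ChevalleyDatum} {a : ℕ → ℕ → ℤ} {F : Type*} [Field F] (hT : TableOK D) (hR : Rel D F)
variable {rf : Fin D.nroots → Fin D.nroots → Fin D.nroots} {pr : Fin D.nroots → Fin D.nroots → ℤ}
  (hW : (ws (rg_ok hT hR) rf pr).Ok)

include hW in
/-- The centraliser in `G` of `U_J`, `J` proper, lies in `B`.
Sketch: Bruhat (`bruhat_ex ok (hBV hT hR) (hUN hT hR) hc`): `c = b1 * n * b2`.  `b1 ∈ B ≤ PJ` normalises `U_J = XS (ΨJ J)` (`PJ_le_normalizer hT hR ha hD J`), so `c' = b1⁻¹ * c * b1 = n * (b2 * b1)` still centralises `U_J`.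
`H46BTN.N_data` gives `σ ∈ WJ univ`, `Mon n σ`, `LinC σ⁻¹`.  A positive root `r` with `a r i₀ ≠ 0` (`i₀ ∉ J`) is in `ΨJ J` (`inRootSub_iff ha`), so `c'` commutes with `x r 1` and `H46BTCoord.coord` applies.
`H46BTSig.tau_eq_one` with `τ = σ⁻¹` gives `σ = 1`; `mem_H_of_Mon_one ok hbv hun hn` gives `n ∈ H ≤ B`. -/
theorem cent_le_B (hD : Std D) (ha : RCFacts D a) (hL : RCLin D a) (J : Set ℕ) (hJ : ∃ i, i < D.rank ∧ i ∉ J)
    {c : GL D.Idx F} (hc : c ∈ (rg hT hR).G) (hcen : ∀ u ∈ (rg hT hR).XS (ΨJ hT hR J), c * u = u * c) :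
    c ∈ (rg hT hR).B := by
  have ok := rg_ok hT hR
  have hO : Helper22ChevU.OrdFacts D := Helper22ChevU.ordFacts hD
  obtain ⟨n, hn, b1, hb1, b2, hb2, e⟩ := bruhat_ex ok (hBV hT hR) (hUN hT hR) hc
  obtain ⟨i₀, hi₀, hi₀J⟩ := hJ
  obtain ⟨σ, hσ, hM, -, -, -, hl⟩ := H46BTN.N_data hT hR ha hL rf pr n hn
  have hb1N : b1 ∈ normalizer ((rg hT hR).XS (ΨJ hT hR J) : Set (GL D.Idx F)) :=
    PJ_le_normalizer hT hR ha hD J (mem_sup_left hb1)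
  have hcen' : ∀ u ∈ (rg hT hR).XS (ΨJ hT hR J), (n * (b2 * b1)) * u = u * (n * (b2 * b1)) := by
    intro u hu
    have hu' : b1 * u * b1⁻¹ ∈ (rg hT hR).XS (ΨJ hT hR J) := (mem_set_normalizer_iff.1 hb1N u).1 hu
    have h1 := hcen _ hu'
    rw [e] at h1
    have h2 : b1 * (n * (b2 * b1) * u) * b1⁻¹ = b1 * (u * (n * (b2 * b1))) * b1⁻¹ := by
      calc b1 * (n * (b2 * b1) * u) * b1⁻¹ = b1 * n * b2 * (b1 * u * b1⁻¹) := by group
        _ = b1 * u * b1⁻¹ * (b1 * n * b2) := h1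
        _ = b1 * (u * (n * (b2 * b1))) * b1⁻¹ := by group
    exact mul_left_cancel (mul_right_cancel h2)
  have hτ : σ⁻¹ = 1 := by
    apply H46BTSig.tau_eq_one hT hR hW ha hL (inv_mem hσ) hl ⟨i₀, hi₀⟩
    intro r hr hne k
    apply H46BTCoord.coord hT hR ha hO hM (mul_mem hb2 hb1) hr
    apply hcen'
    apply x_mem_XS
    refine ⟨hr, ?_⟩
    rw [inRootSub_iff ha]
    intro h
    exact hne (h i₀ hi₀ hi₀J)
  have hσ1 : σ = 1 := inv_eq_one.1 hτ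
  rw [hσ1] at hM
  have hnH := mem_H_of_Mon_one ok (hBV hT hR) (hUN hT hR) hn hM
  rw [e]
  exact mul_mem (mul_mem hb1 (mem_sup_right hnH)) hb2

end Cfsg.Agent.Lib.H46BTCB
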