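import Cfsg.Agent.Lib.H46BTDefs
import Cfsg.Agent.Lib.H46BTMain
import Cfsg.Agent.Lib.H46BTCUD
import Cfsg.Agent.Lib.Helper46SLn5
import Cfsg.Agent.S1048

set_option autoImplicit false
set_option linter.unusedSectionVars false
set_option linter.unusedVariables false

namespace Cfsg.Agent.Lib.H46BTCR

open Subgroup Cfsg.Lie Cfsg.Lie.ChevalleyDatum
open Cfsg.Agent.Lib.Helper23Grp Cfsg.Agent.Lib.Helper23RG Cfsg.Agent.Lib.Helper23RG.RG
  Cfsg.Agent.Lib.Helper23Table Cfsg.Agent.Lib.Helper23Weyl Cfsg.Agent.Lib.Helper23Chev Cfsg.Agent.Lib.Helper23Shape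
  Cfsg.Agent.Lib.Helper22ChevRC Cfsg.Agent.Lib.Helper22ChevBasic Cfsg.Agent.Lib.Helper22ChevPar
  Cfsg.Agent.Lib.H46BTDefs

variable {D : ChevalleyDatum} {F : Type*} [Field F] [Fintype F]

/-- A `p`-regular element centralising a non-trivial radical `p`-subgroup `Q` of `G = D.group F` is trivial.
Sketch: `V = Q.map (D.group F).subtype` is a non-trivial `p`-subgroup of `GL` inside `G`; `H46BTMain.borel_tits p hD V ..` gives `g ∈ G`, a proper `J` with `N(V) ⊓ G ≤ (P_J)^g`.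
`R = ((D.unipotentRadical F J).map (MulAut.conj g).toMonoidHom).subgroupOf (D.group F)` is a `p`-group (`radical_le_U`, `isPGroup_U`) normalised by `N_G(Q)`:
`k ∈ N_G(Q)` gives `(k : GL) ∈ N(V) ⊓ G`, so `k = g * y * g⁻¹`, `y ∈ P_J`, and `P_J` normalises `U_J` (`(Cfsg.Agent.S1048.result D hD J).1`).
`Helper46SLn5.le_of_radical hQ hR hrad` gives `R ≤ Q`, so `x` commutes with `g * u * g⁻¹` for `u ∈ U_J` (these lie in `G`: `radical_le_U`, `U ≤ G`), so `g⁻¹ * x * g ∈ centralizer U_J ⊓ G ≤ U` (`H46BTCUD.cent_le_U`).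
Its order is a power of `p` (`isPGroup_U`) and equals `orderOf x`, which is prime to `p`: so `x = 1`. -/
theorem central_of_radical (p : ℕ) [Fact p.Prime] [CharP F p] (hD : Std D) (Q : Subgroup ↥(D.group F)) (hQ : IsPGroup p Q)
    (hQ1 : Q ≠ ⊥)
    (hrad : (Cfsg.pCore p (Subgroup.normalizer (Q : Set ↥(D.group F)))).map
      (Subgroup.normalizer (Q : Set ↥(D.group F))).subtype = Q)
    (x : ↥(D.group F)) (hx : ¬ p ∣ orderOf x) (hcomm : ∀ d ∈ Q, d * x = x * d) : x = 1 := by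
  have hVG : Q.map (D.group F).subtype ≤ D.group F := by
    rintro _ ⟨q, _, rfl⟩; exact q.2
  have hVp : IsPGroup p (Q.map (D.group F).subtype) := hQ.map _
  have hV1 : Q.map (D.group F).subtype ≠ ⊥ := by
    intro h
    apply hQ1
    exact (Subgroup.map_eq_bot_iff_of_injective _ (Subgroup.subtype_injective _)).1 h
  obtain ⟨g, hg, J, hJ, hN, -⟩ := H46BTMain.borel_tits p hD _ hVG hVp hV1
  obtain ⟨R, hRdef⟩ : ∃ R : Subgroup ↥(D.group F),
      R = ((D.unipotentRadical F J).map (MulAut.conj g).toMonoidHom).subgroupOf (D.group F) := ⟨_, rfl⟩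
  have hRp : IsPGroup p R := by
    have h1 : IsPGroup p (D.unipotentRadical F J) :=
      (H46BTCUD.isPGroup_U p hD).to_le (H46BTCUD.radical_le_U J)
    rw [hRdef]
    exact (h1.map _).comap_subtype
  have hnorm : ∀ k ∈ Subgroup.normalizer (Q : Set ↥(D.group F)), ∀ r ∈ R, k * r * k⁻¹ ∈ R := by
    intro k hk r hr
    have hkV : (k : GL D.Idx F) ∈
        Subgroup.normalizer ((Q.map (D.group F).subtype : Subgroup (GL D.Idx F)) : Set (GL D.Idx F)) := by
      rw [Subgroup.mem_set_normalizer_iff]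
      intro h
      constructor
      · rintro ⟨q, hq, rfl⟩
        exact ⟨k * q * k⁻¹, (Subgroup.mem_set_normalizer_iff.1 hk q).1 hq, rfl⟩
      · rintro ⟨q, hq, hqe⟩
        refine ⟨k⁻¹ * q * k, ?_, ?_⟩
        · apply (Subgroup.mem_set_normalizer_iff.1 hk _).2
          have : k * (k⁻¹ * q * k) * k⁻¹ = q := by group
          rw [this]; exact hq
        · show (k : GL D.Idx F)⁻¹ * (q : GL D.Idx F) * (k : GL D.Idx F) = h
          have hqe' : (q : GL D.Idx F) = (k : GL D.Idx F) * h * (k : GL D.Idx F)⁻¹ := hqe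
          rw [hqe']; group
    obtain ⟨y, hy, hye⟩ := hN ⟨hkV, k.2⟩
    have hye' : g * y * g⁻¹ = (k : GL D.Idx F) := hye
    rw [hRdef, Subgroup.mem_subgroupOf] at hr ⊢
    obtain ⟨u, hu, hue⟩ := hr
    have hue' : g * u * g⁻¹ = (r : GL D.Idx F) := hue
    have hyN := (Cfsg.Agent.S1048.result D hD J).1 hy
    refine ⟨y * u * y⁻¹, (Subgroup.mem_set_normalizer_iff.1 hyN u).1 hu, ?_⟩
    show g * (y * u * y⁻¹) * g⁻¹ = (k : GL D.Idx F) * (r : GL D.Idx F) * (k : GL D.Idx F)⁻¹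
    rw [← hye', ← hue']; group
  have hRQ : R ≤ Q := Helper46SLn5.le_of_radical hQ hRp hrad hnorm
  have hmem : g⁻¹ * (x : GL D.Idx F) * g ∈
      Subgroup.centralizer (D.unipotentRadical F J : Set (GL D.Idx F)) ⊓ D.group F := by
    refine Subgroup.mem_inf.2 ⟨?_, (D.group F).mul_mem ((D.group F).mul_mem ((D.group F).inv_mem hg) x.2) hg⟩
    rw [Subgroup.mem_centralizer_iff]
    intro u hu
    have huG : g * u * g⁻¹ ∈ D.group F :=
      mul_mem (mul_mem hg (posUnipotent_le_group hD (H46BTCUD.radical_le_U J hu))) (inv_mem hg)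
    have hr : (⟨g * u * g⁻¹, huG⟩ : ↥(D.group F)) ∈ R := by
      rw [hRdef, Subgroup.mem_subgroupOf]; exact ⟨u, hu, rfl⟩
    have h1 := hcomm _ (hRQ hr)
    have h2 : g * u * g⁻¹ * (x : GL D.Idx F) = (x : GL D.Idx F) * (g * u * g⁻¹) :=
      congrArg Subtype.val h1
    calc u * (g⁻¹ * (x : GL D.Idx F) * g) = g⁻¹ * (g * u * g⁻¹ * (x : GL D.Idx F)) * g := by group
      _ = g⁻¹ * ((x : GL D.Idx F) * (g * u * g⁻¹)) * g := by rw [h2]
      _ = g⁻¹ * (x : GL D.Idx F) * g * u := by group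
  have hU := H46BTCUD.cent_le_U hD J hJ hmem
  obtain ⟨k, hk⟩ := (H46BTCUD.isPGroup_U p hD) ⟨_, hU⟩
  have hk' : (g⁻¹ * (x : GL D.Idx F) * g) ^ p ^ k = 1 := congrArg Subtype.val hk
  have hx' : (x : GL D.Idx F) ^ p ^ k = 1 := by
    have h3 : (g⁻¹ * (x : GL D.Idx F) * g) ^ p ^ k = g⁻¹ * (x : GL D.Idx F) ^ p ^ k * g := by
      have := conj_pow (a := g⁻¹) (b := (x : GL D.Idx F)) (i := p ^ k)
      simpa using this
    rw [h3] at hk'
    have h4 : (x : GL D.Idx F) ^ p ^ k = g * (g⁻¹ * (x : GL D.Idx F) ^ p ^ k * g) * g⁻¹ := by group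
    rw [h4, hk']; group
  have hxp : x ^ p ^ k = 1 := Subtype.ext hx'
  have hdvd : orderOf x ∣ p ^ k := orderOf_dvd_of_pow_eq_one hxp
  obtain ⟨j, hj, hje⟩ := (Nat.dvd_prime_pow Fact.out).1 hdvd
  rcases Nat.eq_zero_or_pos j with rfl | hjpos
  · simpa using hje
  · exact absurd (hje ▸ dvd_pow_self p hjpos.ne') hx

end Cfsg.Agent.Lib.H46BTCR
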