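import Cfsg.Agent.Lib.H46BTDefs
import Cfsg.Agent.Lib.Helper46DZ7
import Cfsg.Agent.Lib.Helper46DZ2

set_option autoImplicit false
set_option linter.unusedSectionVars false
set_option linter.unusedVariables false

namespace Cfsg.Agent.Lib.H46BTDZc

open Subgroup Cfsg.Lie Cfsg.Lie.ChevalleyDatum
open Cfsg.Agent.Lib.Helper23Grp Cfsg.Agent.Lib.Helper23RG Cfsg.Agent.Lib.Helper23RG.RG
  Cfsg.Agent.Lib.Helper23Table Cfsg.Agent.Lib.Helper23Weyl Cfsg.Agent.Lib.Helper23Chev Cfsg.Agent.Lib.Helper23Shape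
  Cfsg.Agent.Lib.Helper22ChevRC Cfsg.Agent.Lib.Helper22ChevBasic Cfsg.Agent.Lib.Helper22ChevPar
  Cfsg.Agent.Lib.H46BTDefs

open Cfsg

variable {D : ChevalleyDatum} {F : Type*} [Field F] [Fintype F]

/-- `|G| = p^k m`, `p ∤ m`, `|U| = p^k`, `k > 0` -/
theorem fac_eq (p : ℕ) [Fact p.Prime] [CharP F p] (hD : Std D) :
    ∃ k, 0 < k ∧ Nat.card (D.posUnipotent F) = p ^ k ∧ (Nat.card ↥(D.group F)).factorization p = k := by
  have hp := (Fact.out : p.Prime)
  have hF := Cfsg.Agent.Lib.Helper46ChevFacts.facts (F := F) hD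
  have hH := Cfsg.Agent.Lib.Helper46ChevFacts.not_dvd_card_H (F := F) p hD
  obtain ⟨n, _, hq⟩ := FiniteField.card F p
  have hT := Cfsg.Agent.Lib.Helper23All.tab hD
  have hn0 := Cfsg.Agent.Lib.Helper23All.nroots_pos hD
  have hhalf : 0 < D.nroots / 2 := by
    by_contra hcon
    have h0 : D.nroots / 2 = 0 := by omega
    have := hT.neg_pos 0 hn0
    rw [h0] at this
    simp at this
  have hk : Nat.card (D.posUnipotent F) = p ^ ((n : ℕ) * (D.nroots / 2)) := by
    rw [Cfsg.Agent.S1027.result D hD, hq, pow_mul]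
  have hU : IsPGroup p (D.posUnipotent F) := IsPGroup.of_card hk
  have hidx := Cfsg.Agent.Lib.Helper46ChevSt.not_dvd_index hF p hU hH
  have h1 := Subgroup.card_mul_index ((D.posUnipotent F).subgroupOf (D.group F))
  rw [Nat.card_congr (Subgroup.subgroupOfEquivOfLe (posUnipotent_le_group hD)).toEquiv, hk] at h1
  refine ⟨(n : ℕ) * (D.nroots / 2), Nat.mul_pos n.pos hhalf, hk, ?_⟩
  rw [← h1, Nat.factorization_mul (pow_ne_zero _ hp.ne_zero) (fun h => hidx (by rw [h]; exact dvd_zero p)),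
    Finsupp.add_apply, Nat.Prime.factorization_pow hp, Nat.factorization_eq_zero_of_not_dvd hidx]
  simp

/-- `|U| = p^k` with `k > 0` divides `|G|`: `Helper46ChevFacts.exists_card_U`; `U ≠ ⊥` since `x_r(1) ≠ 1` (`hR.eq_one`), `U ≤ G`. -/
theorem fac_pos (p : ℕ) [Fact p.Prime] [CharP F p] (hD : Std D) : 0 < (Nat.card ↥(D.group F)).factorization p := by
  obtain ⟨k, hk0, -, hk⟩ := fac_eq (F := F) p hD
  rw [hk]; exact hk0

/-- the Steinberg character: `Helper46ChevSt.irr`, `Helper46ChevSt.degree` (`St 1 = |U|`), `|U| = p^k` and `p ∤ |G : U|` (`Helper46ChevSt.not_dvd_index`, see the first lines of `Helper46DU3.card_p_elements`);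
compare `Helper46DZ2.exists_dz`. -/
theorem exists_dz (p : ℕ) [Fact p.Prime] [CharP F p] (hD : Std D) :
    ∃ χ : IrrCharacter ↥(D.group F), (charDegree (χ : ↥(D.group F) → ℂ)).factorization p =
      (Nat.card ↥(D.group F)).factorization p := by
  have hp := (Fact.out : p.Prime)
  obtain ⟨k, hk0, hkU, hk⟩ := fac_eq (F := F) p hD
  have hF := Cfsg.Agent.Lib.Helper46ChevFacts.facts (F := F) hD
  have hirr := Cfsg.Agent.Lib.Helper46ChevSt.irr hF
  refine ⟨⟨D.steinbergCharacter F, hirr⟩, ?_⟩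
  have h2 : charDegree (D.steinbergCharacter F) = Nat.card (D.posUnipotent F) := by
    have := Cfsg.Agent.Lib.Helper83Char.charDegree_cast hirr
    rw [Cfsg.Agent.Lib.Helper46ChevSt.degree hF] at this
    exact_mod_cast this
  show (charDegree (D.steinbergCharacter F)).factorization p = _
  rw [h2, hkU, hk, Nat.Prime.factorization_pow hp]
  simp

/-- COPY the end of the proof of `Cfsg.Agent.S2318.result`: `Helper46DZ7.unique_chev hD hχ hχ'` with `Helper46DZ2.vanish_of_dz p hχ h (hord u hu hne)`. -/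
theorem unique_dz (p : ℕ) [Fact p.Prime] [CharP F p] (hD : Std D) (χ χ' : ↥(D.group F) → ℂ)
    (hχ : IsIrrCharacter ↥(D.group F) χ) (hχ' : IsIrrCharacter ↥(D.group F) χ')
    (h : (charDegree χ).factorization p = (Nat.card ↥(D.group F)).factorization p)
    (h' : (charDegree χ').factorization p = (Nat.card ↥(D.group F)).factorization p) : χ = χ' := by
  obtain ⟨k, hk⟩ := Cfsg.Agent.Lib.Helper46ChevFacts.exists_card_U (F := F) p hD
  have hU : IsPGroup p (D.posUnipotent F) := IsPGroup.of_card hk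
  have hord : ∀ u : ↥(D.group F), (u : GL D.Idx F) ∈ D.posUnipotent F → u ≠ 1 → p ∣ orderOf u := by
    intro u hu hne
    obtain ⟨j, hj⟩ := (IsPGroup.iff_orderOf.1 hU) ⟨u, hu⟩
    rw [← Subgroup.orderOf_coe] at hj
    change orderOf (u : GL D.Idx F) = p ^ j at hj
    rw [Subgroup.orderOf_coe] at hj
    rw [hj]
    apply dvd_pow_self
    rintro rfl
    rw [pow_zero, orderOf_eq_one_iff] at hj
    exact hne hj
  apply Cfsg.Agent.Lib.Helper46DZ7.unique_chev hD hχ hχ'
  · intro u hu hne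
    exact Cfsg.Agent.Lib.Helper46DZ2.vanish_of_dz p hχ h (hord u hu hne)
  · intro u hu hne
    exact Cfsg.Agent.Lib.Helper46DZ2.vanish_of_dz p hχ' h' (hord u hu hne)

end Cfsg.Agent.Lib.H46BTDZc
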