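import Cfsg.Agent.Lib.H46BTDefs
import Cfsg.Agent.Lib.H46BTQ
import Cfsg.Agent.Lib.H46BTNRel
import Cfsg.Agent.Lib.H46BTN

set_option autoImplicit false
set_option linter.unusedSectionVars false
set_option linter.unusedVariables false

namespace Cfsg.Agent.Lib.H46BTDom

open Subgroup Cfsg.Lie Cfsg.Lie.ChevalleyDatum
open Cfsg.Agent.Lib.Helper23Grp Cfsg.Agent.Lib.Helper23RG Cfsg.Agent.Lib.Helper23RG.RG
  Cfsg.Agent.Lib.Helper23Table Cfsg.Agent.Lib.Helper23Weyl Cfsg.Agent.Lib.Helper23Chev Cfsg.Agent.Lib.Helper23Shape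
  Cfsg.Agent.Lib.Helper22ChevRC Cfsg.Agent.Lib.Helper22ChevBasic Cfsg.Agent.Lib.Helper22ChevPar
  Cfsg.Agent.Lib.H46BTDefs

variable {D : ChevalleyDatum} {a : ℕ → ℕ → ℤ} {F : Type*} [Field F] (hT : TableOK D) (hR : Rel D F)

/-- Every `x` is carried to a dominant `x'` by an element of `N`. -/
theorem exists_dom (ha : RCFacts D a) (hL : RCLin D a) (x : Fin D.rank → ℝ) :
    ∃ n ∈ (rg hT hR).N, ∃ σ x', NRel a hT hR n σ x x' ∧ Dom x' := by
  classical
  have ok := rg_ok hT hR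
  obtain ⟨T, hTdef⟩ : ∃ T : Set (Fin D.rank → ℝ),
      T = {x' | ∃ n ∈ (rg hT hR).N, ∃ σ, NRel a hT hR n σ x x'} := ⟨_, rfl⟩
  have hTne : T.Nonempty := by
    refine ⟨x, ?_⟩
    rw [hTdef]
    refine ⟨1, (rg hT hR).N.one_mem, 1, RG.Mon.one, fun r => rfl, rfl, ?_, ?_⟩
    · exact Tr_one _
    · rw [inv_one]; exact Tr_one _
  have hTfin : T.Finite := by
    refine (Set.finite_range (fun σ : Equiv.Perm (Fin D.nroots) =>
      fun i : Fin D.rank => ell D a x (σ⁻¹ ((rg hT hR).simple i)).val)).subset ?_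
    rw [hTdef]
    rintro x' ⟨n, -, σ, hN⟩
    refine ⟨σ, ?_⟩
    funext i
    have h1 := hN.2.1 (σ⁻¹ ((rg hT hR).simple i))
    have h0 : σ (σ⁻¹ ((rg hT hR).simple i)) = (rg hT hR).simple i := by
      rw [← Equiv.Perm.mul_apply, mul_inv_cancel, Equiv.Perm.one_apply]
    rw [h0] at h1
    show ell D a x (σ⁻¹ ((rg hT hR).simple i)).val = x' i
    rw [← h1]
    exact H46BTQ.ell_simple ha x' i
  obtain ⟨P, hP⟩ : ∃ P : Finset (Fin D.nroots), P = Finset.univ.filter (fun r => (rg hT hR).pos r) :=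
    ⟨_, rfl⟩
  obtain ⟨x', hx'T, hmax⟩ := Set.exists_max_image T (fun y => ∑ r ∈ P, ell D a y r.val) hTfin hTne
  have hx'T' := hx'T
  rw [hTdef] at hx'T'
  obtain ⟨n, hn, σ, hN⟩ := hx'T'
  refine ⟨n, hn, σ, x', hN, ?_⟩
  intro j
  by_contra hneg
  push Not at hneg
  obtain ⟨x'', hN''⟩ := H46BTN.NRel_nn hT hR ha hL j x'
  have hx''T : x'' ∈ T := by
    rw [hTdef]
    exact ⟨_, (rg hT hR).N.mul_mem (RG.nn_mem_N j) hn, _, H46BTNRel.NRel.mul hT hR hN'' hN⟩
  have hle := hmax x'' hx''T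
  have hell : ∀ r : Fin D.nroots, ell D a x'' r.val = ell D a x' ((rg hT hR).refl j r).val := by
    intro r
    have := hN''.2.1 ((rg hT hR).refl j r)
    rw [reflPerm_apply, ok.refl_refl] at this
    exact this
  have hsP : (rg hT hR).simple j ∈ P := by
    rw [hP, Finset.mem_filter]
    exact ⟨Finset.mem_univ _, ok.pos_simple j⟩
  have hmemE : ∀ r, r ∈ P.erase ((rg hT hR).simple j) ↔
      ((rg hT hR).pos r ∧ r ≠ (rg hT hR).simple j) := by
    intro r
    rw [Finset.mem_erase, hP, Finset.mem_filter]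
    constructor
    · rintro ⟨h1, -, h2⟩; exact ⟨h2, h1⟩
    · rintro ⟨h1, h2⟩; exact ⟨h2, Finset.mem_univ _, h1⟩
  have hsum : ∑ r ∈ P.erase ((rg hT hR).simple j), ell D a x' ((rg hT hR).refl j r).val
      = ∑ r ∈ P.erase ((rg hT hR).simple j), ell D a x' r.val := by
    refine Finset.sum_equiv (reflPerm ok j) ?_ ?_
    · intro r
      rw [hmemE, hmemE, reflPerm_apply]
      exact refl_pos_iff ok j r
    · intro r _
      rfl
  have h1 : ∑ r ∈ P, ell D a x'' r.val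
      = ell D a x' ((rg hT hR).refl j ((rg hT hR).simple j)).val
        + ∑ r ∈ P.erase ((rg hT hR).simple j), ell D a x' r.val := by
    rw [← Finset.add_sum_erase P _ hsP, hell, ← hsum]
    congr 1
    exact Finset.sum_congr rfl (fun r _ => hell r)
  have h2 : ∑ r ∈ P, ell D a x' r.val
      = ell D a x' ((rg hT hR).simple j).val
        + ∑ r ∈ P.erase ((rg hT hR).simple j), ell D a x' r.val :=
    (Finset.add_sum_erase P _ hsP).symm
  have h3 : ell D a x' ((rg hT hR).simple j).val = x' j := H46BTQ.ell_simple ha x' j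
  have h4 : ell D a x' ((rg hT hR).refl j ((rg hT hR).simple j)).val = - x' j := by
    rw [ok.refl_simple, ← h3]
    exact H46BTQ.ell_neg ha x' ((rg hT hR).simple j).2
  rw [h1, h2, h3, h4] at hle
  linarith

end Cfsg.Agent.Lib.H46BTDom
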