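import Cfsg.Agent.Lib.H46BTDefs
import Cfsg.Agent.Lib.Helper23All

set_option autoImplicit false
set_option linter.unusedSectionVars false
set_option linter.unusedVariables false

namespace Cfsg.Agent.Lib.H46BTHD

open Subgroup Cfsg.Lie Cfsg.Lie.ChevalleyDatum
open Cfsg.Agent.Lib.Helper23Grp Cfsg.Agent.Lib.Helper23RG Cfsg.Agent.Lib.Helper23RG.RG
  Cfsg.Agent.Lib.Helper23Table Cfsg.Agent.Lib.Helper23Weyl Cfsg.Agent.Lib.Helper23Chev Cfsg.Agent.Lib.Helper23Shape
  Cfsg.Agent.Lib.Helper22ChevRC Cfsg.Agent.Lib.Helper22ChevBasic Cfsg.Agent.Lib.Helper22ChevPar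
  Cfsg.Agent.Lib.H46BTDefs

open Cfsg.Agent.Lib.Helper23Diag

variable {D : ChevalleyDatum} {F : Type*} [Field F] (hT : TableOK D) (hR : Rel D F)

theorem conj_X (c : Fin D.rank → Fˣ) : ∀ (r : Fin D.nroots) (t : F),
    (δ (X c) : GL D.Idx F) * (rg hT hR).x r t * (δ (X c) : GL D.Idx F)⁻¹
      = (rg hT hR).x r (((X c r : Fˣ) : F) * t) := by
  rw [← Finset.univ_prod_mulSingle c]
  refine Finset.prod_induction (fun i => Pi.mulSingle i (c i))
    (fun c : Fin D.rank → Fˣ => ∀ (r : Fin D.nroots) (t : F),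
      (δ (X c) : GL D.Idx F) * (rg hT hR).x r t * (δ (X c) : GL D.Idx F)⁻¹
        = (rg hT hR).x r (((X c r : Fˣ) : F) * t)) ?_ ?_ ?_
  · intro c d hc hd r t
    rw [map_mul, map_mul]
    have e : (δ (X c) : GL D.Idx F) * δ (X d) * (rg hT hR).x r t * (δ (X c) * δ (X d))⁻¹
        = δ (X c) * (δ (X d) * (rg hT hR).x r t * (δ (X d))⁻¹) * (δ (X c))⁻¹ := by group
    rw [e, hd, hc, Pi.mul_apply, Units.val_mul, mul_assoc]
  · intro r t
    simp
  · intro i _ r t
    rw [← hE_eq hT hR, (rg_ok hT hR).h_conj i r _ t (c i).ne_zero, X_mulSingle,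
      Units.val_zpow_eq_zpow_val]
    rfl

/-- Elements of `H` as diagonal matrices and their action on the root elements.
Sketch: `Helper23Diag.H_eq_range hT hR hC` gives `c` with `h = δ (X c)`.  As in the second half of the proof of `H_eq_range`, `δ (X c)` is the product over `i` of
`hE (simple i) (c i)` (`hE_eq`); each factor conjugates `x r t` to `x r ((c i)^(cartan i r) * t)` (`(rg_ok hT hR).h_conj`, `(rg hT hR).A i r = D.cartan i r` by `rfl`); induction on the list (or `Finset.prod_induction`-style: prove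
`∀ c, P (δ (X c))` via `c = ∏ mulSingle`), `X_apply`. -/
theorem H_conj (hC : CartanRefl D) {h : GL D.Idx F} (hh : h ∈ (rg hT hR).H) :
    ∃ c : Fin D.rank → Fˣ, h = δ (X c) ∧
      ∀ (r : Fin D.nroots) (t : F), h * (rg hT hR).x r t * h⁻¹ = (rg hT hR).x r (((X c r : Fˣ) : F) * t) := by
  rw [H_eq_range hT hR hC] at hh
  obtain ⟨c, rfl⟩ := hh
  exact ⟨c, rfl, conj_X hT hR c⟩

/-- An element of `H` commuting with the fundamental root elements is trivial (the group is of adjoint type).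
Sketch: `H_conj`; `X c (simple j) = 1` by `RG.x_eq_iff`; then `X c r = 1` for all `r` by `(rg_ok hT hR).reach` and `X_refl hT hR hC`; so `X c = 1` and `h = δ 1 = 1` (`map_one`). -/
theorem H_eq_one (hC : CartanRefl D) {h : GL D.Idx F} (hh : h ∈ (rg hT hR).H)
    (hcomm : ∀ j, h * (rg hT hR).x ((rg hT hR).simple j) 1 = (rg hT hR).x ((rg hT hR).simple j) 1 * h) : h = 1 := by
  obtain ⟨c, rfl, hconj⟩ := H_conj hT hR hC hh
  have hs : ∀ j, X c ((rg hT hR).simple j) = 1 := by
    intro j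
    have h1 := hconj ((rg hT hR).simple j) 1
    rw [hcomm j, mul_inv_cancel_right, RG.x_eq_iff (rg_ok hT hR), mul_one] at h1
    exact Units.ext h1.symm
  have hall : ∀ r, X c r = 1 := by
    refine (rg_ok hT hR).reach (fun r => X c r = 1) hs ?_
    intro i r hr
    show X c ((rg hT hR).refl i r) = 1
    rw [X_refl hT hR hC, hr, hs i, one_zpow, one_mul]
  have hX : X c = 1 := funext hall
  rw [hX, map_one]

end Cfsg.Agent.Lib.H46BTHD
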