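import Mathlib

set_option autoImplicit false
set_option linter.unusedSectionVars false
set_option linter.unusedVariables false

namespace Cfsg.Agent.Lib.H46BTOpt

/-- PURE MATHLIB. Existence of an optimal pair. -/
theorem opt {n : ℕ} {ι : Type*} [Finite ι] (Φ : ι → (Fin n → ℝ) → ℝ) (q : (Fin n → ℝ) → ℝ)
    (hΦc : ∀ g, Continuous (Φ g)) (hΦh : ∀ g (t : ℝ) x, 0 < t → Φ g (t • x) = t * Φ g x)
    (hqc : Continuous q) (hqh : ∀ (t : ℝ) x, q (t • x) = t ^ 2 * q x) (hq : ∀ x i, (x i) ^ 2 ≤ q x)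
    (h0 : ∃ g x, 0 < Φ g x) :
    ∃ g x, 0 < Φ g x ∧ q x = 1 ∧ ∀ g' y, Φ g' y ≤ Φ g x * Real.sqrt (q y) := by
  obtain ⟨g₀, x₀, h0⟩ := h0
  have hΦ0 : ∀ g, Φ g 0 = 0 := by
    intro g
    have := hΦh g 2 0 (by norm_num)
    rw [smul_zero] at this
    linarith
  have hq0 : q 0 = 0 := by
    have := hqh 0 0
    rw [smul_zero] at this
    rw [this]; ring
  have hqpos : ∀ y, y ≠ 0 → 0 < q y := by
    intro y hy
    obtain ⟨i, hi⟩ : ∃ i, y i ≠ 0 := by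
      by_contra hcon
      push Not at hcon
      exact hy (funext hcon)
    exact lt_of_lt_of_le (by positivity) (hq y i)
  -- the compact set
  have hKc : IsCompact {x | q x = 1} := by
    have hcl : IsClosed {x | q x = 1} := isClosed_eq hqc continuous_const
    refine IsCompact.of_isClosed_subset
      (isCompact_univ_pi (fun _ : Fin n => isCompact_Icc (a := (-1 : ℝ)) (b := 1))) hcl ?_
    intro x hx i _
    have h1 : (x i) ^ 2 ≤ 1 := by
      have := hq x i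
      rw [Set.mem_setOf_eq] at hx
      rwa [hx] at this
    exact abs_le.1 (abs_le_one_iff_mul_self_le_one.2 (by nlinarith))
  -- normalisation
  have hnorm : ∀ y, y ≠ 0 → q ((Real.sqrt (q y))⁻¹ • y) = 1 ∧
      ∀ g, Φ g y = Real.sqrt (q y) * Φ g ((Real.sqrt (q y))⁻¹ • y) := by
    intro y hy
    have hp := hqpos y hy
    have hs : 0 < Real.sqrt (q y) := Real.sqrt_pos.2 hp
    refine ⟨?_, fun g => ?_⟩
    · rw [hqh, inv_pow, Real.sq_sqrt hp.le, inv_mul_cancel₀ hp.ne']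
    · rw [← hΦh g _ _ hs, smul_smul, mul_inv_cancel₀ hs.ne', one_smul]
  have hx₀ : x₀ ≠ 0 := by
    rintro rfl
    rw [hΦ0] at h0
    exact lt_irrefl _ h0
  have hKne : ({x | q x = 1} : Set (Fin n → ℝ)).Nonempty := ⟨_, (hnorm x₀ hx₀).1⟩
  have hmax : ∀ g, ∃ x ∈ {x | q x = 1}, IsMaxOn (Φ g) {x | q x = 1} x :=
    fun g => hKc.exists_isMaxOn hKne (hΦc g).continuousOn
  choose m hmK hm using hmax
  haveI : Nonempty ι := ⟨g₀⟩
  obtain ⟨g, hg⟩ := Finite.exists_max (fun g => Φ g (m g))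
  have hbound : ∀ g' z, q z = 1 → Φ g' z ≤ Φ g (m g) := by
    intro g' z hz
    exact le_trans (hm g' hz) (hg g')
  have hpos : 0 < Φ g (m g) := by
    have h1 := (hnorm x₀ hx₀).2 g₀
    have hs : 0 < Real.sqrt (q x₀) := Real.sqrt_pos.2 (hqpos x₀ hx₀)
    have h2 : 0 < Φ g₀ ((Real.sqrt (q x₀))⁻¹ • x₀) := by
      rw [h1] at h0
      exact (mul_pos_iff_of_pos_left hs).1 h0
    exact lt_of_lt_of_le h2 (hbound _ _ (hnorm x₀ hx₀).1)
  refine ⟨g, m g, hpos, hmK g, fun g' y => ?_⟩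
  by_cases hy : y = 0
  · rw [hy, hΦ0, hq0, Real.sqrt_zero, mul_zero]
  · rw [(hnorm y hy).2 g', mul_comm]
    exact mul_le_mul_of_nonneg_right (hbound _ _ (hnorm y hy).1) (Real.sqrt_nonneg _)

/-- PURE MATHLIB. Uniqueness from the parallelogram law. -/
theorem uniq {n : ℕ} (q : (Fin n → ℝ) → ℝ) (hq : ∀ x i, (x i) ^ 2 ≤ q x)
    (hpar : ∀ x y, q (x + y) + q (x - y) = 2 * q x + 2 * q y) {M : ℝ} (hM : 0 < M) {x₁ x₂ : Fin n → ℝ}
    (h1 : q x₁ = 1) (h2 : q x₂ = 1) (h : 2 * M ≤ M * Real.sqrt (q (x₁ + x₂))) : x₁ = x₂ := by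
  have h3 : 2 ≤ Real.sqrt (q (x₁ + x₂)) := by
    rw [mul_comm] at h
    exact le_of_mul_le_mul_left h hM
  have h4 : (2 : ℝ) ^ 2 ≤ q (x₁ + x₂) := (Real.le_sqrt' (by norm_num)).1 h3
  have h5 := hpar x₁ x₂
  rw [h1, h2] at h5
  funext i
  have h6 := hq (x₁ - x₂) i
  have h7 : (x₁ i - x₂ i) ^ 2 ≤ 0 := by
    rw [Pi.sub_apply] at h6
    linarith
  have h8 : x₁ i - x₂ i = 0 := by
    have := sq_nonneg (x₁ i - x₂ i)
    exact pow_eq_zero_iff (two_ne_zero) |>.1 (le_antisymm h7 this)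
  linarith

end Cfsg.Agent.Lib.H46BTOpt
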