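import Cfsg.Agent.Lib.H46BTDefs
import Cfsg.Agent.Lib.H46BTXL

set_option autoImplicit false
set_option linter.unusedSectionVars false
set_option linter.unusedVariables false

namespace Cfsg.Agent.Lib.H46BTPsi

open Subgroup Cfsg.Lie Cfsg.Lie.ChevalleyDatum
open Cfsg.Agent.Lib.Helper23Grp Cfsg.Agent.Lib.Helper23RG Cfsg.Agent.Lib.Helper23RG.RG
  Cfsg.Agent.Lib.Helper23Table Cfsg.Agent.Lib.Helper23Weyl Cfsg.Agent.Lib.Helper23Chev Cfsg.Agent.Lib.Helper23Shape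
  Cfsg.Agent.Lib.Helper22ChevRC Cfsg.Agent.Lib.Helper22ChevBasic Cfsg.Agent.Lib.Helper22ChevPar
  Cfsg.Agent.Lib.H46BTDefs

variable {D : ChevalleyDatum} {a : ℕ → ℕ → ℤ} {F : Type*} [Field F] (hT : TableOK D) (hR : Rel D F)

/-- roots of `Φ_J`, `J = ZJ x`: `a r i = 0` for `i ∉ J` (`inRootSub_iff ha`), `x i = 0` for `i ∈ J`. -/
theorem ell_eq_zero (ha : RCFacts D a) (x : Fin D.rank → ℝ) (r : Fin D.nroots) (h : D.InRootSub (ZJ x) r.val) :
    ell D a x r.val = 0 := by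
  unfold ell
  apply Finset.sum_eq_zero
  intro i _
  by_cases hi : i.val ∈ ZJ x
  · obtain ⟨h1, h2⟩ := hi
    have : x i = 0 := h2
    rw [this, mul_zero]
  · rw [(inRootSub_iff ha (ZJ x) r).mp h i.val i.2 hi]
    simp

theorem ell_pos (ha : RCFacts D a) {x : Fin D.rank → ℝ} (hx : Dom x) (r : Fin D.nroots)
    (h : ΨJ hT hR (ZJ x) r) : 0 < ell D a x r.val := by
  have hnot := h.2
  rw [inRootSub_iff ha] at hnot
  push Not at hnot
  obtain ⟨i, hi, hiJ, hne⟩ := hnot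
  unfold ell
  apply Finset.sum_pos'
  · intro k _
    apply mul_nonneg
    · exact_mod_cast ha.nonneg r r.2 h.1 k.val k.2
    · exact hx k
  · refine ⟨⟨i, hi⟩, Finset.mem_univ _, ?_⟩
    apply mul_pos
    · have : 0 < a r.val i := lt_of_le_of_ne (ha.nonneg r r.2 h.1 i hi) (Ne.symm hne)
      exact_mod_cast this
    · apply lt_of_le_of_ne (hx _)
      intro h0
      exact hiJ ⟨hi, h0.symm⟩

/-- there is `c > 0` below all `ell x r`, `r ∈ Ψ_J`. -/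
theorem exists_lower (ha : RCFacts D a) {x : Fin D.rank → ℝ} (hx : Dom x) :
    ∃ c : ℝ, 0 < c ∧ ∀ r : Fin D.nroots, ΨJ hT hR (ZJ x) r → c ≤ ell D a x r.val := by
  classical
  by_cases hS : (Finset.univ.filter (fun r : Fin D.nroots => ΨJ hT hR (ZJ x) r)).Nonempty
  · obtain ⟨r0, hr0, hmin⟩ := Finset.exists_min_image _ (fun r : Fin D.nroots => ell D a x r.val) hS
    refine ⟨ell D a x r0.val, ell_pos hT hR ha hx r0 (Finset.mem_filter.1 hr0).2, fun r hr => ?_⟩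
    exact hmin r (Finset.mem_filter.2 ⟨Finset.mem_univ _, hr⟩)
  · refine ⟨1, one_pos, fun r hr => ?_⟩
    exact absurd ⟨r, Finset.mem_filter.2 ⟨Finset.mem_univ _, hr⟩⟩ hS

/-- `→` by `exists_lower`; `←`: if `r` is negative then `ell ≤ 0` (`H46BTQ.ell_nonpos`), if `r ∈ Φ_J` then `ell = 0`. -/
theorem ΨJ_iff (ha : RCFacts D a) {x : Fin D.rank → ℝ} (hx : Dom x) (r : Fin D.nroots) :
    ΨJ hT hR (ZJ x) r ↔ 0 < ell D a x r.val := by
  constructor
  · exact ell_pos hT hR ha hx r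
  · intro h
    refine ⟨?_, fun hin => ?_⟩
    · show D.nroots / 2 ≤ r.val
      by_contra hcon
      have := Cfsg.Agent.Lib.H46BTQ.ell_nonpos ha hx (not_le.1 hcon)
      linarith
    · rw [ell_eq_zero ha x r hin] at h
      exact lt_irrefl _ h

/-- `closure_le` and `x_mem_US` -/
theorem UJ_le_US (ha : RCFacts D a) (hO : Helper22ChevU.OrdFacts D) {x : Fin D.rank → ℝ} (hx : Dom x) :
    ∃ (c : ℝ) (hc : 0 < c), (rg hT hR).XS (ΨJ hT hR (ZJ x)) ≤ US (F := F) (lvl D a x) c hc.le := by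
  obtain ⟨c, hc, h⟩ := exists_lower hT hR ha hx
  refine ⟨c, hc, ?_⟩
  unfold RG.XS
  rw [Subgroup.closure_le]
  rintro _ ⟨r, t, hr, rfl⟩
  exact Cfsg.Agent.Lib.H46BTXL.x_mem_US hT hR ha hO x r t hc.le (h r hr)

/-- `H_le_LS`, `closure_le`, `x_mem_LS`, `ell_eq_zero` -/
theorem L_le_LS (ha : RCFacts D a) (hO : Helper22ChevU.OrdFacts D) (x : Fin D.rank → ℝ) :
    (rg hT hR).H ⊔ (rg hT hR).XS (fun r => D.InRootSub (ZJ x) r.val) ≤ LS (F := F) (lvl D a x) := by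
  apply sup_le (Cfsg.Agent.Lib.H46BTXL.H_le_LS hT hR _)
  unfold RG.XS
  rw [Subgroup.closure_le]
  rintro _ ⟨r, t, hr, rfl⟩
  exact Cfsg.Agent.Lib.H46BTXL.x_mem_LS hT hR ha hO x r t (ell_eq_zero ha x r hr)

end Cfsg.Agent.Lib.H46BTPsi
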