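import Cfsg.Agent.Lib.H46BTDefs
import Cfsg.Agent.Lib.H46BTPsi

set_option autoImplicit false
set_option linter.unusedSectionVars false
set_option linter.unusedVariables false

namespace Cfsg.Agent.Lib.H46BTP

open Subgroup Cfsg.Lie Cfsg.Lie.ChevalleyDatum
open Cfsg.Agent.Lib.Helper23Grp Cfsg.Agent.Lib.Helper23RG Cfsg.Agent.Lib.Helper23RG.RG
  Cfsg.Agent.Lib.Helper23Table Cfsg.Agent.Lib.Helper23Weyl Cfsg.Agent.Lib.Helper23Chev Cfsg.Agent.Lib.Helper23Shape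
  Cfsg.Agent.Lib.Helper22ChevRC Cfsg.Agent.Lib.Helper22ChevBasic Cfsg.Agent.Lib.Helper22ChevPar
  Cfsg.Agent.Lib.H46BTDefs

variable {D : ChevalleyDatum} {a : ℕ → ℕ → ℤ} {F : Type*} [Field F] (hT : TableOK D) (hR : Rel D F)
variable {rf : Fin D.nroots → Fin D.nroots → Fin D.nroots} {pr : Fin D.nroots → Fin D.nroots → ℤ}
  (hW : (ws (rg_ok hT hR) rf pr).Ok)

include hW in
/-- An element of `N` whose permutation preserves the dominant linear form `ell x` lies in `P_J`, `J = ZJ x`.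
Sketch: by `ΨJ_iff` the permutation `σ` preserves `Ψ_J`, so `n` normalises `XS Ψ_J` (`Mon.mem_normalizer`), and
`Helper22ChevPar.normalizer_radical hT hR ha hW hD J` gives `n ∈ PJ` (`N_le_G`). -/
theorem mem_PJ (hD : Std D) (ha : RCFacts D a) {x : Fin D.rank → ℝ} (hx : Dom x) {n : GL D.Idx F}
    (hn : n ∈ (rg hT hR).N) {σ : Equiv.Perm (Fin D.nroots)} (hM : (rg hT hR).Mon n σ)
    (h : ∀ r : Fin D.nroots, ell D a x (σ r).val = ell D a x r.val) : n ∈ PJ hT hR (ZJ x) := by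
  have ok := rg_ok hT hR
  rw [← normalizer_radical hT hR ha hW hD (ZJ x)]
  refine ⟨hM.mem_normalizer (fun r => ?_), N_le_G ok hn⟩
  rw [H46BTPsi.ΨJ_iff hT hR ha hx, H46BTPsi.ΨJ_iff hT hR ha hx, h r]

end Cfsg.Agent.Lib.H46BTP
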