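import Cfsg.Agent.Lib.H46BTDefs
import Cfsg.Agent.Lib.H46BTQ

set_option autoImplicit false
set_option linter.unusedSectionVars false
set_option linter.unusedVariables false

namespace Cfsg.Agent.Lib.H46BTPhi

open Subgroup Cfsg.Lie Cfsg.Lie.ChevalleyDatum
open Cfsg.Agent.Lib.Helper23Grp Cfsg.Agent.Lib.Helper23RG Cfsg.Agent.Lib.Helper23RG.RG
  Cfsg.Agent.Lib.Helper23Table Cfsg.Agent.Lib.Helper23Weyl Cfsg.Agent.Lib.Helper23Chev Cfsg.Agent.Lib.Helper23Shape
  Cfsg.Agent.Lib.Helper22ChevRC Cfsg.Agent.Lib.Helper22ChevBasic Cfsg.Agent.Lib.Helper22ChevPar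
  Cfsg.Agent.Lib.H46BTDefs

variable {D : ChevalleyDatum} (a : ℕ → ℕ → ℤ) {F : Type*} [Field F]

/-- if `v ∈ V`, `v ≠ 1` then `g⁻¹ v g - 1 ≠ 0` has a non-zero entry -/
theorem supp_nonempty {V : Subgroup (GL D.Idx F)} (hV : V ≠ ⊥) (g : GL D.Idx F) : (supp V g).Nonempty := by
  classical
  obtain ⟨⟨v, hv⟩, hv1⟩ := (Subgroup.ne_bot_iff_exists_ne_one).1 hV
  have hv1' : v ≠ 1 := fun h => hv1 (Subtype.ext h)
  have hne : ((g⁻¹ * v * g : GL D.Idx F) : Matrix D.Idx D.Idx F) - 1 ≠ 0 := by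
    intro h
    rw [sub_eq_zero] at h
    have h1 : g⁻¹ * v * g = 1 := Units.ext h
    apply hv1'
    have h2 : v = g * (g⁻¹ * v * g) * g⁻¹ := by group
    rw [h2, h1]
    group
  obtain ⟨i, j, hij⟩ : ∃ i j, (((g⁻¹ * v * g : GL D.Idx F) : Matrix D.Idx D.Idx F) - 1) i j ≠ 0 := by
    by_contra hcon
    push Not at hcon
    exact hne (Matrix.ext hcon)
  refine ⟨(i, j), ?_⟩
  rw [supp, Finset.mem_filter]
  exact ⟨Finset.mem_univ _, v, hv, hij⟩

/-- `Finset.le_inf'_iff` after `rw [Phi, dif_pos (supp_nonempty hV g)]` -/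
theorem le_Phi_iff {V : Subgroup (GL D.Idx F)} (hV : V ≠ ⊥) (g : GL D.Idx F) (x : Fin D.rank → ℝ) (c : ℝ) :
    c ≤ Phi a V g x ↔ LvV a V g x c := by
  classical
  rw [Phi, dif_pos (supp_nonempty hV g), Finset.le_inf'_iff]
  constructor
  · intro h v hv ρ κ hne
    exact h (ρ, κ) (by rw [supp, Finset.mem_filter]; exact ⟨Finset.mem_univ _, v, hv, hne⟩)
  · intro h e he
    rw [supp, Finset.mem_filter] at he
    obtain ⟨-, v, hv, hne⟩ := he
    exact h v hv e.1 e.2 hne

/-- `Continuous.finset_inf'_apply` (or induction) and `H46BTQ.lvl_continuous` -/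
theorem Phi_continuous (V : Subgroup (GL D.Idx F)) (g : GL D.Idx F) : Continuous (Phi a V g) := by
  classical
  by_cases h : (supp V g).Nonempty
  · have e : Phi a V g = fun x => (supp V g).inf' h (fun e => lvl D a x e.1 - lvl D a x e.2) := by
      funext x
      rw [Phi, dif_pos h]
    rw [e]
    exact Continuous.finset_inf'_apply h
      (fun e _ => (H46BTQ.lvl_continuous a e.1).sub (H46BTQ.lvl_continuous a e.2))
  · have e : Phi a V g = fun _ => 0 := by
      funext x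
      rw [Phi, dif_neg h]
    rw [e]
    exact continuous_const

/-- both inequalities through `Finset.le_inf'_iff`/`Finset.inf'_le`, or `le_Phi_iff`-style reasoning; `H46BTQ.lvl_smul` -/
theorem Phi_smul (V : Subgroup (GL D.Idx F)) (g : GL D.Idx F) (t : ℝ) (x : Fin D.rank → ℝ) (ht : 0 < t) :
    Phi a V g (t • x) = t * Phi a V g x := by
  classical
  by_cases h : (supp V g).Nonempty
  · rw [Phi, Phi, dif_pos h, dif_pos h,
      Finset.apply_inf'_eq_inf'_comp h (fun y => t * y) (fun x y => mul_min_of_nonneg x y ht.le)]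
    refine Finset.inf'_congr h rfl (fun e _ => ?_)
    simp only [Function.comp, H46BTQ.lvl_smul]
    ring
  · rw [Phi, Phi, dif_neg h, dif_neg h, mul_zero]

end Cfsg.Agent.Lib.H46BTPhi
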