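import Cfsg.Agent.Lib.H46BTDefs
import Cfsg.Agent.Lib.H46BTQ

set_option autoImplicit false
set_option linter.unusedSectionVars false
set_option linter.unusedVariables false

namespace Cfsg.Agent.Lib.H46BTT

open Subgroup Cfsg.Lie Cfsg.Lie.ChevalleyDatum
open Cfsg.Agent.Lib.Helper23Grp Cfsg.Agent.Lib.Helper23RG Cfsg.Agent.Lib.Helper23RG.RG
  Cfsg.Agent.Lib.Helper23Table Cfsg.Agent.Lib.Helper23Weyl Cfsg.Agent.Lib.Helper23Chev Cfsg.Agent.Lib.Helper23Shape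
  Cfsg.Agent.Lib.Helper22ChevRC Cfsg.Agent.Lib.Helper22ChevBasic Cfsg.Agent.Lib.Helper22ChevPar
  Cfsg.Agent.Lib.H46BTDefs

variable {D : ChevalleyDatum} {a : ℕ → ℕ → ℤ} {F : Type*} [Field F] (hT : TableOK D) (hR : Rel D F)

theorem conj_sub_one {ι : Type*} [Fintype ι] [DecidableEq ι] (p w : GL ι F) :
    ((p⁻¹ * w * p : GL ι F) : Matrix ι ι F) - 1 =
      ((p⁻¹ : GL ι F) : Matrix ι ι F) * ((w : Matrix ι ι F) - 1) * (p : Matrix ι ι F) := by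
  have h : ((p⁻¹ : GL ι F) : Matrix ι ι F) * (p : Matrix ι ι F) = 1 := by
    rw [← Units.val_mul, inv_mul_cancel, Units.val_one]
  rw [Units.val_mul, Units.val_mul, mul_sub, sub_mul, mul_one, h]

/-- `(g n⁻¹)⁻¹ v (g n⁻¹) - 1 = n (g⁻¹ v g - 1) n⁻¹` and `Lev.conj_tr` -/
theorem LvV_tr {V : Subgroup (GL D.Idx F)} {g n : GL D.Idx F} {σ : Equiv.Perm (Fin D.nroots)} {x x' : Fin D.rank → ℝ} {c : ℝ}
    (hn : NRel a hT hR n σ x x') (h : LvV a V g x c) : LvV a V (g * n⁻¹) x' c := by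
  intro v hv
  have e : (g * n⁻¹)⁻¹ * v * (g * n⁻¹) = (n⁻¹)⁻¹ * (g⁻¹ * v * g) * n⁻¹ := by group
  rw [e, conj_sub_one, inv_inv]
  exact Lev.conj_tr hn.2.2.2.1 hn.2.2.2.2 (h v hv)

/-- `(g p)⁻¹ v (g p) - 1 = p⁻¹ (g⁻¹ v g - 1) p` and `Lev.mul` twice (`0 + c + 0 = c`) -/
theorem LvV_P {V : Subgroup (GL D.Idx F)} {g q : GL D.Idx F} {x : Fin D.rank → ℝ} {c : ℝ}
    (hq : q ∈ PS (F := F) (lvl D a x)) (h : LvV a V g x c) : LvV a V (g * q) x c := by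
  intro v hv
  have e : (g * q)⁻¹ * v * (g * q) = q⁻¹ * (g⁻¹ * v * g) * q := by group
  rw [e, conj_sub_one]
  have := (hq.2.mul (h v hv)).mul hq.1
  simpa using this

/-- `(h g)⁻¹ v (h g) = g⁻¹ (h⁻¹ v h) g` and `h⁻¹ v h ∈ V` -/
theorem LvV_norm {V : Subgroup (GL D.Idx F)} {g k : GL D.Idx F} {x : Fin D.rank → ℝ} {c : ℝ}
    (hk : k ∈ normalizer (V : Set (GL D.Idx F))) (h : LvV a V g x c) : LvV a V (k * g) x c := by
  intro v hv
  have e : (k * g)⁻¹ * v * (k * g) = g⁻¹ * (k⁻¹ * v * k) * g := by group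
  rw [e]
  refine h _ ?_
  have h1 := (Subgroup.mem_normalizer_iff.1 (Subgroup.inv_mem _ hk) v).1 hv
  simpa using h1

/-- `Lev.add_fun` and `H46BTQ.lvl_add` -/
theorem LvV_add {V : Subgroup (GL D.Idx F)} {g : GL D.Idx F} {x x' : Fin D.rank → ℝ} {c c' : ℝ}
    (h : LvV a V g x c) (h' : LvV a V g x' c') : LvV a V g (x + x') (c + c') := by
  intro v hv
  rw [H46BTQ.lvl_add]
  exact (h v hv).add_fun (h' v hv)

end Cfsg.Agent.Lib.H46BTT
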