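import Cfsg.Agent.Lib.H46BTDefs

set_option autoImplicit false
set_option linter.unusedSectionVars false
set_option linter.unusedVariables false

namespace Cfsg.Agent.Lib.H46BTTab

open Cfsg.Lie Cfsg.Agent.Lib.Helper22ChevEngine Cfsg.Agent.Lib.Helper22ChevFast Cfsg.Agent.Lib.Helper22ChevBasic
  Cfsg.Agent.Lib.Helper22ChevTabs Cfsg.Agent.Lib.Helper22ChevCF Cfsg.Agent.Lib.Helper22ChevN
  Cfsg.Agent.Lib.Helper22ChevRC Cfsg.Agent.Lib.H46BTDefs

noncomputable def sumLt (n : ℕ) (f : ℕ → ℕ) : ℕ := Nat.rec 0 (fun k ih => Nat.add ih (f k)) n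

theorem sumLt_eq (n : ℕ) (f : ℕ → ℕ) : sumLt n f = ∑ i ∈ Finset.range n, f i := by
  induction n with
  | zero => rfl
  | succ n ih =>
    have e : sumLt (n + 1) f = sumLt n f + f n := rfl
    rw [e, ih, Finset.sum_range_succ]

noncomputable def chkRC2 (P : FD) (nT rt : ℕ) : Bool :=
  allLt P.l (fun j => allLt P.n (fun r =>
    Nat.beq (Nat.add (rcD P rt (wD P nT j r) j) (Nat.add (Nat.mul 8 (sumLt P.l (fun i => rcD P rt r i)))
        (Nat.mul 8 (sumLt P.l (fun i => rcD P rt (wD P nT j (P.simpD i)) j)))))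
      (Nat.add (sumLt P.l (fun i => Nat.mul (rcD P rt r i) (rcD P rt (wD P nT j (P.simpD i)) j)))
        (Nat.add (Nat.mul 64 P.l) 8))))
  && allLt P.l (fun i => allLt P.l (fun j => Bool.rec (anyLt P.n (fun r => Nat.ble (Nat.div P.n 2) r &&
      !(Nat.beq (rcD P rt r i) 8) && Nat.beq (rcD P rt r j) 8 && !(Nat.beq (rcD P rt (wD P nT j r) j) 8))) true
      (Nat.beq i j)))

theorem sum_shift (l : ℕ) (A A' : ℕ → ℕ) :
    ∑ i ∈ Finset.range l, ((A i : ℤ) - 8) * ((A' i : ℤ) - 8) =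
      ((∑ i ∈ Finset.range l, A i * A' i : ℕ) : ℤ) - 8 * ((∑ i ∈ Finset.range l, A i : ℕ) : ℤ)
        - 8 * ((∑ i ∈ Finset.range l, A' i : ℕ) : ℤ) + 64 * (l : ℤ) := by
  induction l with
  | zero => simp
  | succ l ih =>
    rw [Finset.sum_range_succ, Finset.sum_range_succ, Finset.sum_range_succ, Finset.sum_range_succ, ih]
    push_cast
    ring

theorem rcLin_of_chk {D : ChevalleyDatum} {P : FD} {nT rt : ℕ} (hA : Agree D P) (hN : NTab P nT)
    (h : chkRC2 P nT rt = true) : RCLin D (fun r i => (rcD P rt r i : ℤ) - 8) := by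
  have hn := hA.n_eq
  have hl := hA.l_eq
  simp only [chkRC2, Bool.and_eq_true, allLt_iff] at h
  obtain ⟨h1, h2⟩ := h
  have hw : ∀ i < P.l, ∀ r < P.n, D.reflectRoot i r = wD P nT i r := by
    intro i hi r hr
    rw [reflectRoot_eq hA i r hi hr, (n2Facts_of_chk P nT i (hN.c2 i hi)).w_eq r hr]
  refine ⟨?_, ?_⟩
  · intro j hj r hr
    have h3 := Nat.eq_of_beq_eq_true (h1 j (hl ▸ hj) r (hn ▸ hr))
    have h4 : rcD P rt (wD P nT j r) j + (8 * sumLt P.l (fun i => rcD P rt r i) +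
        8 * sumLt P.l (fun i => rcD P rt (wD P nT j (P.simpD i)) j)) =
        sumLt P.l (fun i => rcD P rt r i * rcD P rt (wD P nT j (P.simpD i)) j) + (64 * P.l + 8) := h3
    rw [sumLt_eq, sumLt_eq, sumLt_eq] at h4
    have h5 : ∑ i ∈ Finset.range D.rank, ((rcD P rt r i : ℤ) - 8) * ((rcD P rt (D.reflectRoot j (D.simple i)) j : ℤ) - 8) =
        ∑ i ∈ Finset.range P.l, ((rcD P rt r i : ℤ) - 8) * ((rcD P rt (wD P nT j (P.simpD i)) j : ℤ) - 8) := by
      rw [hl]
      apply Finset.sum_congr rfl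
      intro i hi
      have hi' : i < P.l := hl ▸ Finset.mem_range.mp hi
      rw [(hA.simple i hi').1, hw j (hl ▸ hj) _ (hA.simple i hi').2]
    show (rcD P rt (D.reflectRoot j r) j : ℤ) - 8 = _
    rw [h5, sum_shift, hw j (hl ▸ hj) r (hn ▸ hr)]
    have h6 : (rcD P rt (wD P nT j r) j : ℤ) + (8 * ((∑ i ∈ Finset.range P.l, rcD P rt r i : ℕ) : ℤ) +
        8 * ((∑ i ∈ Finset.range P.l, rcD P rt (wD P nT j (P.simpD i)) j : ℕ) : ℤ)) =
        ((∑ i ∈ Finset.range P.l, rcD P rt r i * rcD P rt (wD P nT j (P.simpD i)) j : ℕ) : ℤ) + (64 * (P.l : ℤ) + 8) := by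
      exact_mod_cast h4
    linarith
  · intro i hi j hj hij
    have h3 := h2 i (hl ▸ hi) j (hl ▸ hj)
    rw [nbeq_of_ne hij] at h3
    obtain ⟨r, hr, e⟩ := anyLt_spec _ _ h3
    simp only [Bool.and_eq_true, Bool.not_eq_true'] at e
    obtain ⟨⟨⟨e1, e2⟩, e3⟩, e4⟩ := e
    refine ⟨r, hn ▸ hr, ?_, ?_, ?_, ?_⟩
    · have := Nat.le_of_ble_eq_true e1
      rw [← hn]; exact this
    · have := (beq_false_iff _ _).mp e2
      show (rcD P rt r i : ℤ) - 8 ≠ 0
      omega
    · have := Nat.eq_of_beq_eq_true e3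
      show (rcD P rt r j : ℤ) - 8 = 0
      omega
    · rw [hw j (hl ▸ hj) r hr]
      have := (beq_false_iff _ _).mp e4
      show (rcD P rt (wD P nT j r) j : ℤ) - 8 ≠ 0
      omega

set_option maxRecDepth 1000000 in
theorem chkG2' : chkRC2 Helper22ChevTabG2.fd Helper22ChevNTabG2.nT rtG2 = true := by decide +kernel

set_option maxRecDepth 1000000 in
theorem chkB2' : chkRC2 Helper22ChevTabB2.fd Helper22ChevNTabB2.nT rtB2 = true := by decide +kernel

set_option maxRecDepth 1000000 in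
theorem chkD4' : chkRC2 Helper22ChevTabD4.fd Helper22ChevNTabD4.nT rtD4 = true := by decide +kernel

set_option maxRecDepth 1000000 in
theorem chkF4' : chkRC2 Helper22ChevTabF4.fd Helper22ChevNTabF4.nT rtF4 = true := by decide +kernel

set_option maxRecDepth 1000000 in
theorem chkE6' : chkRC2 Helper22ChevTabE6.fd Helper22ChevNTabE6.nT rtE6 = true := by decide +kernel

set_option maxRecDepth 1000000 in
theorem chkE7' : chkRC2 Helper22ChevTabE7.fd Helper22ChevNTabE7a.nT rtE7 = true := by decide +kernel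

set_option maxRecDepth 1000000 in
theorem chkE8' : chkRC2 Helper22ChevTabE8.fd Helper22ChevNTabE8a.nT rtE8 = true := by decide +kernel

set_option maxRecDepth 100000 in
theorem exists_rc2 {D : ChevalleyDatum} (hD : Std D) : ∃ a, RCFacts D a ∧ RCLin D a := by
  simp only [List.mem_cons, List.mem_nil_iff, or_false] at hD
  rcases hD with rfl | rfl | rfl | rfl | rfl | rfl | rfl
  · exact ⟨_, rcFacts_of_chk Helper22ChevTabG2.agree Helper22ChevNTabG2.nTab chkG2,
      rcLin_of_chk Helper22ChevTabG2.agree Helper22ChevNTabG2.nTab chkG2'⟩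
  · exact ⟨_, rcFacts_of_chk Helper22ChevTabB2.agree Helper22ChevNTabB2.nTab chkB2,
      rcLin_of_chk Helper22ChevTabB2.agree Helper22ChevNTabB2.nTab chkB2'⟩
  · exact ⟨_, rcFacts_of_chk Helper22ChevTabD4.agree Helper22ChevNTabD4.nTab chkD4,
      rcLin_of_chk Helper22ChevTabD4.agree Helper22ChevNTabD4.nTab chkD4'⟩
  · exact ⟨_, rcFacts_of_chk Helper22ChevTabF4.agree Helper22ChevNTabF4.nTab chkF4,
      rcLin_of_chk Helper22ChevTabF4.agree Helper22ChevNTabF4.nTab chkF4'⟩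
  · exact ⟨_, rcFacts_of_chk Helper22ChevTabE6.agree Helper22ChevNTabE6.nTab chkE6,
      rcLin_of_chk Helper22ChevTabE6.agree Helper22ChevNTabE6.nTab chkE6'⟩
  · exact ⟨_, rcFacts_of_chk Helper22ChevTabE7.agree Helper22ChevNTabE7.nTab chkE7,
      rcLin_of_chk Helper22ChevTabE7.agree Helper22ChevNTabE7.nTab chkE7'⟩
  · exact ⟨_, rcFacts_of_chk Helper22ChevTabE8.agree Helper22ChevNTabE8.nTab chkE8,
      rcLin_of_chk Helper22ChevTabE8.agree Helper22ChevNTabE8.nTab chkE8'⟩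

end Cfsg.Agent.Lib.H46BTTab
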