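import Cfsg.Agent.Lib.H46BTDefs
import Cfsg.Agent.Lib.H46BTPsi

set_option autoImplicit false
set_option linter.unusedSectionVars false
set_option linter.unusedVariables false

namespace Cfsg.Agent.Lib.H46BTU

open Subgroup Cfsg.Lie Cfsg.Lie.ChevalleyDatum
open Cfsg.Agent.Lib.Helper23Grp Cfsg.Agent.Lib.Helper23RG Cfsg.Agent.Lib.Helper23RG.RG
  Cfsg.Agent.Lib.Helper23Table Cfsg.Agent.Lib.Helper23Weyl Cfsg.Agent.Lib.Helper23Chev Cfsg.Agent.Lib.Helper23Shape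
  Cfsg.Agent.Lib.Helper22ChevRC Cfsg.Agent.Lib.Helper22ChevBasic Cfsg.Agent.Lib.Helper22ChevPar
  Cfsg.Agent.Lib.H46BTDefs

variable {D : ChevalleyDatum} {a : ℕ → ℕ → ℤ} {F : Type*} [Field F] (hT : TableOK D) (hR : Rel D F)

/-- An element `u` of `P_J` (`J = ZJ x`, `x` dominant) such that `u - 1` raises the level of `x` by `c > 0` lies in `U_J`.
Sketch: `P_J = U_J ⊔ L_J` (`radical_sup_levi hT hR ha J`) and `L_J ≤ P_J` normalises `U_J` (`PJ_le_normalizer hT hR ha hD J`), so `u = w * l`, `w ∈ U_J`, `l ∈ L_J`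
(`Helper23Grp.mem_sup_of_normalizes`).  By `UJ_le_US`, `w ∈ US (lvl x) c₁`; with `c₂ = min c c₁ > 0`, `l = w⁻¹ * u` satisfies `Lev (lvl x) c₂ (l - 1)`
(`lev_mul_sub_one`, `Lev.mono`).  By `L_le_LS`, `Tr (lvl x) (lvl x) l`.  Hence `l - 1 = 0`: an entry `(l - 1) ρ κ ≠ 0` gives `c₂ ≤ lvl ρ - lvl κ`, so `ρ ≠ κ`,
so `l ρ κ ≠ 0`, so `lvl ρ = lvl κ`: contradiction. -/
theorem mem_UJ (hD : Std D) (ha : RCFacts D a) {x : Fin D.rank → ℝ} (hx : Dom x) {u : GL D.Idx F}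
    (hu : u ∈ PJ hT hR (ZJ x)) {c : ℝ} (hc : 0 < c)
    (h : Lev (lvl D a x) c ((u : Matrix D.Idx D.Idx F) - 1)) : u ∈ (rg hT hR).XS (ΨJ hT hR (ZJ x)) := by
  have hO : Helper22ChevU.OrdFacts D := Helper22ChevU.ordFacts hD
  have hLP : (rg hT hR).H ⊔ (rg hT hR).XS (fun r => D.InRootSub (ZJ x) r.val) ≤ PJ hT hR (ZJ x) := by
    rw [← radical_sup_levi hT hR ha (ZJ x)]
    exact le_sup_right
  have hN := hLP.trans (PJ_le_normalizer hT hR ha hD (ZJ x))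
  rw [← radical_sup_levi hT hR ha (ZJ x), mem_sup_of_normalizes hN] at hu
  obtain ⟨w, hw, l, hl, rfl⟩ := hu
  obtain ⟨c₁, hc₁, hUS⟩ := H46BTPsi.UJ_le_US hT hR ha hO hx
  have hwU := hUS hw
  have hlL := H46BTPsi.L_le_LS hT hR ha hO x hl
  have hc₂ : 0 < min c c₁ := lt_min hc hc₁
  have hl1 : Lev (lvl D a x) (min c c₁) ((l : Matrix D.Idx D.Idx F) - 1) := by
    have e : (l : Matrix D.Idx D.Idx F)
        = ((w⁻¹ : GL D.Idx F) : Matrix D.Idx D.Idx F) * ((w * l : GL D.Idx F) : Matrix D.Idx D.Idx F) := by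
      rw [← Units.val_mul, inv_mul_cancel_left]
    rw [e]
    exact lev_mul_sub_one hc₂.le (hwU.2.mono (min_le_right _ _)) (h.mono (min_le_left _ _))
  have hl0 : l = 1 := by
    apply Units.ext
    rw [Units.val_one, ← sub_eq_zero]
    ext ρ κ
    by_contra hne
    rw [Matrix.zero_apply] at hne
    have h1 := hl1 ρ κ hne
    have hρκ : ρ ≠ κ := by
      rintro rfl
      rw [sub_self] at h1
      linarith
    have h2 : (l : Matrix D.Idx D.Idx F) ρ κ ≠ 0 := by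
      rwa [Matrix.sub_apply, Matrix.one_apply_ne hρκ, sub_zero] at hne
    have h3 := hlL.1 ρ κ h2
    rw [h3, sub_self] at h1
    linarith
  rw [hl0, mul_one]
  exact hw

end Cfsg.Agent.Lib.H46BTU
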