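import Mathlib

set_option autoImplicit false

namespace Cfsg.Agent.Lib.H46WCPow

variable {F : Type*} [Field F] [Fintype F]

/-- PURE MATHLIB.  Sketch: let `g` generate `Fˣ` (`IsCyclic.exists_generator`), `orderOf g = Fintype.card F - 1`
(`orderOf_eq_card_of_forall_mem_zpowers`, `Fintype.card_units`).  If `g ^ d = 1` then `(orderOf g : ℤ) ∣ d`
(`orderOf_dvd_iff_zpow_eq_one`), so `card F - 1 ≤ |d|` (`Int.natAbs_dvd_natAbs`, `Nat.le_of_dvd`): contradiction. -/
theorem exists_zpow_ne_one {d : ℤ} (hd : d ≠ 0) (h : d.natAbs + 1 < Fintype.card F) : ∃ c : F, c ≠ 0 ∧ c ^ d ≠ 1 := by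
  classical
  obtain ⟨g, hg⟩ := IsCyclic.exists_generator (α := Fˣ)
  have ho : orderOf g = Fintype.card F - 1 := by
    rw [orderOf_eq_card_of_forall_mem_zpowers hg, Nat.card_eq_fintype_card, Fintype.card_units]
  refine ⟨(g : F), g.ne_zero, ?_⟩
  intro h1
  have h2 : g ^ d = 1 := by
    apply Units.ext
    rw [Units.val_zpow_eq_zpow_val, h1, Units.val_one]
  have h3 : (orderOf g : ℤ) ∣ d := orderOf_dvd_iff_zpow_eq_one.mpr h2
  have h4 : orderOf g ∣ d.natAbs := by
    have := Int.natAbs_dvd_natAbs.mpr h3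
    simpa using this
  have h5 : orderOf g ≤ d.natAbs := Nat.le_of_dvd (Int.natAbs_pos.mpr hd) h4
  omega

/-- PURE MATHLIB.  Every element of a finite field is a sum of two squares
(char 2: `FiniteField.isSquare_of_char_two`; odd: `FiniteField.exists_root_sum_quadratic` with `X ^ 2` and `X ^ 2 - C c`),
so `T` is stable under all multiplications, and `s = (s / t0) * t0`. -/
theorem fillF (T : AddSubgroup F) (hT : ∀ c t : F, t ∈ T → c ^ 2 * t ∈ T) {t0 : F} (h0 : t0 ∈ T) (hne : t0 ≠ 0) (s : F) :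
    s ∈ T := by
  classical
  have key : ∀ c : F, ∃ a b : F, c = a ^ 2 + b ^ 2 := by
    intro c
    by_cases h2 : ringChar F = 2
    · obtain ⟨a, ha⟩ := FiniteField.isSquare_of_char_two h2 c
      exact ⟨a, 0, by rw [ha]; ring⟩
    · have hodd : Fintype.card F % 2 = 1 := FiniteField.odd_card_of_char_ne_two h2
      obtain ⟨a, b, hab⟩ := FiniteField.exists_root_sum_quadratic (R := F)
        (f := Polynomial.X ^ 2) (g := Polynomial.X ^ 2 - Polynomial.C c)
        (by simp) (by
          rw [Polynomial.degree_sub_eq_left_of_degree_lt] <;> simp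
          exact lt_of_le_of_lt Polynomial.degree_C_le (by norm_num)) hodd
      simp at hab
      exact ⟨a, b, by linear_combination -hab⟩
  obtain ⟨a, b, hab⟩ := key (s / t0)
  have hs : s = a ^ 2 * t0 + b ^ 2 * t0 := by
    rw [← add_mul, ← hab, div_mul_cancel₀ _ hne]
  rw [hs]
  exact T.add_mem (hT a t0 h0) (hT b t0 h0)

end Cfsg.Agent.Lib.H46WCPow
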