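import Mathlib
import Cfsg.Prelude.Def_Transfer
import Cfsg.Agent.Lib.Helper58SylDefs

/-! Vocabulary of PROJECT 2249 (normal 2-rank of `GL_n(q)`, `q ≡ 3 mod 4`). -/

set_option autoImplicit false

namespace Cfsg.Agent.Lib.H48NrDefs

open Cfsg.Agent.Lib.Helper58SylDefs

/-- `E` is an elementary abelian 2-subgroup of `S` normalised by `S`. -/
def NEA {G : Type*} [Group G] (S E : Subgroup G) : Prop :=
  E ≤ S ∧ (∀ s ∈ S, ∀ e ∈ E, s * e * s⁻¹ ∈ E) ∧ Cfsg.IsElementaryAbelian 2 E

/-- every normal elementary abelian subgroup of every Sylow 2-subgroup has order at most `N` -/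
def NRup (G : Type*) [Group G] (N : ℕ) : Prop :=
  ∀ S : Sylow 2 G, ∀ E : Subgroup G, NEA (S : Subgroup G) E → Nat.card E ≤ N

/-- an extra involution (or `1`) commuting with a wreath datum and not lying in it -/
structure WZ {G D₀ : Type*} [Group G] [Group D₀] {k : ℕ} (W : WD G D₀ k) (z : G) : Prop where
  sq : z * z = 1
  commB : ∀ d, z * W.B d = W.B d * z
  commP : ∀ π, z * W.Pm π = W.Pm π * z
  disj : ∀ d π, z = W.B d * W.Pm π → z = 1

/-- the subgroup `(D₀ wr S_k) × ⟨z⟩` -/
def XX {G D₀ : Type*} [Group G] [Group D₀] {k : ℕ} (W : WD G D₀ k) (z : G) : Subgroup G :=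
  W.wr ⊤ ⊤ ⊔ Subgroup.zpowers z

/-- transport of a wreath datum along an isomorphism -/
def mapWD {G G' D₀ : Type*} [Group G] [Group G'] [Group D₀] {k : ℕ} (W : WD G D₀ k)
    (e : G ≃* G') : WD G' D₀ k where
  B := e.toMonoidHom.comp W.B
  Pm := e.toMonoidHom.comp W.Pm
  conj := by
    intro π d
    show e (W.Pm π) * e (W.B d) * (e (W.Pm π))⁻¹ = e (W.B _)
    rw [← map_mul, ← map_inv, ← map_mul, W.conj]
  inj := by
    intro d π h
    apply W.inj
    apply e.injective
    rw [map_mul, map_one]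
    exact h

theorem mapWZ {G G' D₀ : Type*} [Group G] [Group G'] [Group D₀] {k : ℕ} {W : WD G D₀ k}
    {z : G} (h : WZ W z) (e : G ≃* G') : WZ (mapWD W e) (e z) where
  sq := by rw [← map_mul, h.sq, map_one]
  commB := by
    intro d
    show e z * e (W.B d) = e (W.B d) * e z
    rw [← map_mul, ← map_mul, h.commB]
  commP := by
    intro π
    show e z * e (W.Pm π) = e (W.Pm π) * e z
    rw [← map_mul, ← map_mul, h.commP]
  disj := by
    intro d π hh
    have : e z = e (W.B d * W.Pm π) := by rw [map_mul]; exact hh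
    rw [h.disj d π (e.injective this), map_one]

/-- `{1, -1}` in `GL₂` -/
def ZG (F : Type*) [Field F] : Subgroup (GL (Fin 2) F) where
  carrier := {z | z = 1 ∨ z = -1}
  one_mem' := Or.inl rfl
  mul_mem' := by
    rintro a b (rfl | rfl) (rfl | rfl) <;> simp
  inv_mem' := by
    rintro a (rfl | rfl)
    · simp
    · right
      rw [inv_eq_iff_mul_eq_one]
      simp

theorem card_ZG {F : Type*} [Field F] (h2 : (2 : F) ≠ 0) : Nat.card (ZG F) = 2 := by
  rw [Nat.card_eq_two_iff]
  refine ⟨⟨1, Or.inl rfl⟩, ⟨-1, Or.inr rfl⟩, ?_, ?_⟩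
  · intro h
    have h1 : (1 : GL (Fin 2) F) = -1 := congrArg Subtype.val h
    have h3 := congrArg (fun M : GL (Fin 2) F => (M : Matrix (Fin 2) (Fin 2) F) 0 0) h1
    simp at h3
    apply h2
    linear_combination h3
  · ext ⟨z, hz⟩
    simp only [Set.mem_insert_iff, Set.mem_singleton_iff, Set.mem_univ, iff_true]
    rcases hz with h | h
    · left; exact Subtype.ext h
    · right; exact Subtype.ext h

end Cfsg.Agent.Lib.H48NrDefs
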