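import Mathlib
import Cfsg.Agent.Lib.H48NrDefs


set_option autoImplicit false

namespace Cfsg.Agent.Lib.H48NrBound

open Cfsg.Agent.Lib.Helper58SylDefs Cfsg.Agent.Lib.H48NrDefs

theorem card_le {G D₀ : Type*} [Group G] [Group D₀] {k : ℕ} (W : WD G D₀ k) (z : G)
    (hz : z * z = 1) (E : Subgroup G) (Z0 : Subgroup D₀) [Finite Z0]
    (h : ∀ e ∈ E, ∃ ζ : Fin k → D₀, (∀ i, ζ i ∈ Z0) ∧ (e = W.B ζ ∨ e = W.B ζ * z)) :
    Nat.card E ≤ Nat.card Z0 ^ k * Nat.card (Subgroup.zpowers z) := by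
  classical
  have hfo : IsOfFinOrder z :=
    isOfFinOrder_iff_pow_eq_one.mpr ⟨2, by norm_num, by rw [pow_two]; exact hz⟩
  have hfin : Finite ↥(Subgroup.zpowers z) := (finite_zpowers.mpr hfo).to_subtype
  let f : (Fin k → ↥Z0) × ↥(Subgroup.zpowers z) → G :=
    fun x => W.B (fun i => (x.1 i : D₀)) * (x.2 : G)
  have hex : ∀ e : E, ∃ x, f x = (e : G) := by
    rintro ⟨e, he⟩
    obtain ⟨ζ, hζ, h1 | h1⟩ := h e he
    · refine ⟨(fun i => ⟨ζ i, hζ i⟩, 1), ?_⟩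
      simp [f, h1]
    · refine ⟨(fun i => ⟨ζ i, hζ i⟩, ⟨z, Subgroup.mem_zpowers z⟩), ?_⟩
      simp [f, h1]
  choose g hg using hex
  have hinj : Function.Injective g := by
    intro a b hab
    apply Subtype.ext
    rw [← hg a, ← hg b, hab]
  have := Nat.card_le_card_of_injective g hinj
  rw [Nat.card_prod, Nat.card_fun, Nat.card_eq_fintype_card (α := Fin k), Fintype.card_fin] at this
  exact this

end Cfsg.Agent.Lib.H48NrBound
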