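import Mathlib
import Cfsg.Agent.Lib.H48NrDefs
import Cfsg.Agent.Lib.Helper73SylWrcard

set_option autoImplicit false

namespace Cfsg.Agent.Lib.H48NrCardX

open Cfsg.Agent.Lib.Helper58SylDefs Cfsg.Agent.Lib.H48NrDefs

/-- PIECE CardX (40m, pure group theory).  Order of `XX W z = (D₀ wr S_k) × ⟨z⟩`.
PROOF.  `H := W.wr ⊤ ⊤`, `K := zpowers z`.  Every element of `K` commutes with every element of `H`
(`H` is generated by the `B d`, `Pm π`; or use `Helper73SylWrcard.wr_eq_S0`: elements are `B d * Pm π`), and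
`H ⊓ K = ⊥`: an element of `K` is `1` or `z` (as `z * z = 1`), and `z ∈ H` gives `z = B d * Pm π`, so `z = 1` by `hz.disj`.
So `MonoidHom.noncommCoprod H.subtype K.subtype _` is injective (`MonoidHom.noncommCoprod_injective`) with range
`H ⊔ K` (`MonoidHom.noncommCoprod_range`), hence `Nat.card (H ⊔ K) = Nat.card H * Nat.card K` (`Nat.card_prod`,
`MonoidHom.ofInjective`).  Finally `Helper73SylWrcard.card_wr W ⊤ ⊤`, `Subgroup.card_top`, `Nat.card_perm`, `Nat.card_fin`. -/
theorem card_XX {G D₀ : Type*} [Group G] [Group D₀] [Finite D₀] {k : ℕ} (W : WD G D₀ k) (z : G)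
    (hz : WZ W z) :
    Nat.card (XX W z) = Nat.card D₀ ^ k * k.factorial * Nat.card (Subgroup.zpowers z) := by
  have hmemK : ∀ y ∈ Subgroup.zpowers z, y = 1 ∨ y = z := by
    intro y hy
    obtain ⟨m, rfl⟩ := Subgroup.mem_zpowers_iff.1 hy
    rcases Int.even_or_odd' m with ⟨r, rfl | rfl⟩
    · left
      rw [zpow_mul, zpow_two, hz.sq, one_zpow]
    · right
      rw [zpow_add, zpow_mul, zpow_two, hz.sq, one_zpow, one_mul, zpow_one]
  have hcz : ∀ x ∈ W.wr ⊤ ⊤, x * z = z * x := by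
    intro x hx
    rw [Cfsg.Agent.Lib.Helper73SylWrcard.wr_eq_S0] at hx
    obtain ⟨d, -, π, -, rfl⟩ := hx
    rw [← mul_assoc, hz.commB, mul_assoc, mul_assoc, hz.commP]
  have hcomm : ∀ (x : ↥(W.wr ⊤ ⊤)) (y : ↥(Subgroup.zpowers z)),
      Commute ((W.wr ⊤ ⊤).subtype x) ((Subgroup.zpowers z).subtype y) := by
    rintro ⟨x, hx⟩ ⟨y, hy⟩
    show x * y = y * x
    rcases hmemK y hy with rfl | rfl
    · simp
    · exact hcz x hx
  have hinj : Function.Injective
      (MonoidHom.noncommCoprod (W.wr ⊤ ⊤).subtype (Subgroup.zpowers z).subtype hcomm) := by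
    rw [MonoidHom.noncommCoprod_injective]
    refine ⟨Subgroup.subtype_injective _, Subgroup.subtype_injective _, ?_⟩
    rw [Subgroup.range_subtype, Subgroup.range_subtype, Subgroup.disjoint_def]
    intro x hx hy
    rcases hmemK x hy with rfl | rfl
    · rfl
    · rw [Cfsg.Agent.Lib.Helper73SylWrcard.wr_eq_S0] at hx
      obtain ⟨d, -, π, -, h⟩ := hx
      exact hz.disj d π h
  have hrange : (MonoidHom.noncommCoprod (W.wr ⊤ ⊤).subtype (Subgroup.zpowers z).subtype hcomm).range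
      = XX W z := by
    rw [MonoidHom.noncommCoprod_range, Subgroup.range_subtype, Subgroup.range_subtype]
    rfl
  rw [← hrange, ← Nat.card_congr (MonoidHom.ofInjective hinj).toEquiv, Nat.card_prod,
    Cfsg.Agent.Lib.Helper73SylWrcard.card_wr W ⊤ ⊤, Subgroup.card_top, Subgroup.card_top,
    Nat.card_perm, Nat.card_fin]

end Cfsg.Agent.Lib.H48NrCardX
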