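import Mathlib
import Cfsg.Agent.Lib.H48NrDefs

set_option autoImplicit false

namespace Cfsg.Agent.Lib.H48NrCex

open Cfsg.Agent.Lib.Helper58SylDefs Cfsg.Agent.Lib.H48NrDefs

/-- PIECE Cex.  An element `c` of `GL₂(q)`, `q ≡ 3 mod 4`, with `c⁴ = -1`. -/
theorem exists_c {F : Type*} [Field F] [Fintype F] (hq : Fintype.card F % 4 = 3) :
    ∃ c : GL (Fin 2) F, c ^ 4 = -1 := by
  classical
  have hm1 : ¬ IsSquare (-1 : F) := by
    rw [FiniteField.isSquare_neg_one_iff]
    omega
  have h2 : (2 : F) ≠ 0 := by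
    intro h
    apply hm1
    refine ⟨1, ?_⟩
    linear_combination -h
  obtain ⟨a, b, hab, h2ab⟩ : ∃ a b : F, a * a = b * b ∧ 2 * a * b = 1 := by
    by_cases hs : IsSquare (2 : F)
    · obtain ⟨s, hs⟩ := hs
      have hs0 : s ≠ 0 := by rintro rfl; simp at hs; exact h2 hs
      refine ⟨s⁻¹, s⁻¹, rfl, ?_⟩
      rw [hs]; field_simp
    · obtain ⟨s, hs'⟩ := Cfsg.Agent.Lib.Helper49Orth.isSquare_mul_of_not hm1 hs
      have hs0 : s ≠ 0 := by
        rintro rfl
        simp at hs'
        exact h2 hs'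
      refine ⟨s⁻¹, -s⁻¹, by ring, ?_⟩
      have h3 : (2 : F) = -(s * s) := by linear_combination -hs'
      rw [h3]; field_simp
  let M : Matrix (Fin 2) (Fin 2) F := !![a, -b; b, a]
  have hdet : M.det ≠ 0 := by
    intro h
    rw [Matrix.det_fin_two_of] at h
    have h3 : 2 * (a * a) = 0 := by linear_combination h + hab
    have h4 : a = 0 := by
      rcases mul_eq_zero.mp h3 with h5 | h5
      · exact absurd h5 h2
      · exact mul_self_eq_zero.mp h5
    rw [h4] at h2ab
    simp at h2ab
  have hMM : M * M = !![0, -1; 1, 0] := by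
    simp only [M, Matrix.mul_fin_two]
    have e1 : a * a + -b * b = 0 := by linear_combination hab
    have e2 : a * -b + -b * a = -1 := by linear_combination -h2ab
    have e3 : b * a + a * b = 1 := by linear_combination h2ab
    have e4 : b * -b + a * a = 0 := by linear_combination hab
    rw [e1, e2, e3, e4]
  refine ⟨Matrix.GeneralLinearGroup.mkOfDetNeZero M hdet, ?_⟩
  apply Units.ext
  rw [Units.val_pow_eq_pow_val, Units.val_neg, Units.val_one]
  show M ^ 4 = -1
  rw [show (4 : ℕ) = 2 + 2 from rfl, pow_add, pow_two, hMM, Matrix.mul_fin_two]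
  ext i j
  fin_cases i <;> fin_cases j <;> simp

end Cfsg.Agent.Lib.H48NrCex
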