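import Mathlib
import Cfsg.Agent.Lib.H48NrDefs


set_option autoImplicit false

namespace Cfsg.Agent.Lib.H48NrConj

open Cfsg.Agent.Lib.Helper58SylDefs Cfsg.Agent.Lib.H48NrDefs

/-- PIECE Conj.  It is enough to bound the normal elementary abelian subgroups of ONE
Sylow 2-subgroup. -/
theorem nrup_of_one {G : Type*} [Group G] [Finite G] (P : Sylow 2 G) (N : ℕ)
    (h : ∀ E : Subgroup G, NEA (P : Subgroup G) E → Nat.card E ≤ N) : NRup G N := by
  have : Fact (Nat.Prime 2) := ⟨Nat.prime_two⟩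
  intro S E hE
  obtain ⟨g, hg⟩ := MulAction.exists_smul_eq G S P
  have hP : (P : Subgroup G) = (S : Subgroup G).map (MulAut.conj g).toMonoidHom := by
    rw [← hg]; rfl
  have hcard : Nat.card (E.map (MulAut.conj g).toMonoidHom) = Nat.card E :=
    Subgroup.card_map_of_injective (MulAut.conj g).injective
  rw [← hcard]
  apply h
  obtain ⟨h1, h2, h3, h4⟩ := hE
  refine ⟨?_, ?_, ?_, ?_⟩
  · rw [hP]
    exact Subgroup.map_mono h1
  · rw [hP]
    rintro _ ⟨s, hs, rfl⟩ _ ⟨e, he, rfl⟩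
    refine ⟨s * e * s⁻¹, h2 s hs e he, ?_⟩
    rw [map_mul, map_mul, map_inv]
  · refine ⟨⟨?_⟩⟩
    rintro ⟨_, a, ha, rfl⟩ ⟨_, b, hb, rfl⟩
    apply Subtype.ext
    have hab : a * b = b * a := by
      have := h3.is_comm.comm ⟨a, ha⟩ ⟨b, hb⟩
      exact congrArg Subtype.val this
    show (MulAut.conj g).toMonoidHom a * (MulAut.conj g).toMonoidHom b
      = (MulAut.conj g).toMonoidHom b * (MulAut.conj g).toMonoidHom a
    rw [← map_mul, ← map_mul, hab]
  · rintro _ ⟨a, ha, rfl⟩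
    rw [← map_pow, h4 a ha, map_one]

end Cfsg.Agent.Lib.H48NrConj
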