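import Mathlib
import Cfsg.Agent.Lib.H48NrDefs
import Cfsg.Agent.Lib.Helper7SylGlwd

set_option autoImplicit false

namespace Cfsg.Agent.Lib.H48NrDatum

open Cfsg.Agent.Lib.Helper58SylDefs Cfsg.Agent.Lib.H48NrDefs

/-- PIECE Datum (40m).  The wreath datum `GL₂ wr S_k` (times `⟨z⟩` if `j = 1`) inside `GL (Fin (2k+j)) F`.
PROOF.  `Helper7SylGlwd.exists_wd_gl k j` gives `W₀ : WD (GL ((Fin 2 × Fin k) ⊕ Fin j) F) (GL (Fin 2) F) k` and, if `1 ≤ j`, an element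
`z₀` with `z₀ * z₀ = 1`, `det z₀ = -1`, commuting with all `W₀.B d`, `W₀.Pm π`, and `z₀ ≠ W₀.B d * W₀.Pm π`.
Case `j = 0`: `z₀ := 1` (`WZ` trivial, `zpowers 1 = ⊥`, card 1).  Case `j = 1`: `WZ W₀ z₀` (`disj` is vacuous), `z₀ ≠ 1` (take `d = 1, π = 1`),
`orderOf z₀ = 2` (`orderOf_eq_prime`), `Nat.card_zpowers`.
Transport with `H48NrDefs.mapWD`, `mapWZ` along `e : GL ((Fin 2 × Fin k) ⊕ Fin j) F ≃* GL (Fin (2*k+j)) F`,
`e := Units.mapEquiv (Matrix.reindexAlgEquiv F F ε).toMulEquiv` (or `Matrix.GeneralLinearGroup.reindex`-like), where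
`ε : (Fin 2 × Fin k) ⊕ Fin j ≃ Fin (2*k+j) := (Equiv.sumCongr finProdFinEquiv (Equiv.refl _)).trans finSumFinEquiv`;
`Nat.card (zpowers (e z₀)) = Nat.card (zpowers z₀)` since `orderOf (e z₀) = orderOf z₀` (`MulEquiv.orderOf_eq`, `Nat.card_zpowers`). -/
theorem exists_datum {F : Type*} [Field F] (h2 : (2 : F) ≠ 0) (k j : ℕ) (hj : j ≤ 1) :
    ∃ (W : WD (GL (Fin (2 * k + j)) F) (GL (Fin 2) F) k) (z : GL (Fin (2 * k + j)) F),
      WZ W z ∧ Nat.card (Subgroup.zpowers z) = 2 ^ j := by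
  obtain ⟨W₀, -, -, hW⟩ := Cfsg.Agent.Lib.Helper7SylGlwd.exists_wd_gl (F := F) k j
  let ε : (Fin 2 × Fin k) ⊕ Fin j ≃ Fin (2 * k + j) :=
    (Equiv.sumCongr finProdFinEquiv (Equiv.refl _)).trans finSumFinEquiv
  let e : GL ((Fin 2 × Fin k) ⊕ Fin j) F ≃* GL (Fin (2 * k + j)) F :=
    Units.mapEquiv (Matrix.reindexAlgEquiv F F ε).toMulEquiv
  obtain ⟨z₀, hz₀, hc₀⟩ : ∃ z₀ : GL ((Fin 2 × Fin k) ⊕ Fin j) F, WZ W₀ z₀ ∧
      Nat.card (Subgroup.zpowers z₀) = 2 ^ j := by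
    rcases Nat.le_one_iff_eq_zero_or_eq_one.1 hj with rfl | rfl
    · refine ⟨1, ⟨by simp, by simp, by simp, fun _ _ _ => rfl⟩, ?_⟩
      rw [Nat.card_zpowers, orderOf_one, pow_zero]
    · obtain ⟨z₀, h1, -, h3, h4, h5⟩ := hW le_rfl h2
      refine ⟨z₀, ⟨h1, h3, h4, fun d π h => absurd h (h5 d π)⟩, ?_⟩
      have hne : z₀ ≠ 1 := by
        have := h5 1 1
        simpa using this
      rw [Nat.card_zpowers, pow_one]
      exact orderOf_eq_prime (by rw [pow_two]; exact h1) hne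
  refine ⟨mapWD W₀ e, e z₀, mapWZ hz₀ e, ?_⟩
  rw [Nat.card_zpowers, MulEquiv.orderOf_eq, ← Nat.card_zpowers]
  exact hc₀

end Cfsg.Agent.Lib.H48NrDatum
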