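import Mathlib
import Cfsg.Agent.Lib.H48NrDefs
import Cfsg.Agent.Lib.H48NrCardX
import Cfsg.Agent.Lib.Helper17SylArithGL

set_option autoImplicit false

namespace Cfsg.Agent.Lib.H48NrIdx

open Cfsg.Agent.Lib.Helper58SylDefs Cfsg.Agent.Lib.H48NrDefs

/-- PIECE Idx (35m, arithmetic with landed lemmas).  `(GL₂ wr S_k) × ⟨z⟩` has odd index in `GL_{2k+j}(q)`, `q ≡ 3 mod 4`, `j ≤ 1`.
PROOF (model: `Cfsg.Agent.S2250.lower`, the block `hidx`).  Suppose `2 ∣ index`.  With `q := Fintype.card F`, `dd := Helper17SylArith.dd`: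
`H48NrCardX.card_XX` : `Nat.card (XX W z) = Nat.card (GL (Fin 2) F) ^ k * k ! * 2 ^ j`;
`Nat.card (GL (Fin m) F) = ∏ i : Fin m, (q ^ m - q ^ i)` (`Matrix.card_GL_field`, `Nat.card_eq_fintype_card`);
`Helper17SylArithGL.val_gl2 q hq : (∏ i : Fin 2, (q^2 - q^i)).factorization 2 = dd q + 1`; `Nat.ordProj_dvd`.
So `2 ^ ((dd q + 1) * k + (k !).factorization 2 + j) ∣ Nat.card (XX W z)`, hence (times `2 ∣ index`, `Subgroup.card_mul_index`)
`2 ^ (… + 1) ∣ Nat.card (GL (Fin (2k+j)) F)`, contradicting `Helper17SylArithGL.arith_gl3 q hq k j hj`. -/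
theorem odd_index {F : Type*} [Field F] [Fintype F] (hq : Fintype.card F % 4 = 3) (k j : ℕ)
    (hj : j ≤ 1) (W : WD (GL (Fin (2 * k + j)) F) (GL (Fin 2) F) k) (z : GL (Fin (2 * k + j)) F)
    (hz : WZ W z) (hcz : Nat.card (Subgroup.zpowers z) = 2 ^ j) : ¬ 2 ∣ (XX W z).index := by
  classical
  intro hdvd
  have hc := Cfsg.Agent.Lib.H48NrCardX.card_XX W z hz
  rw [hcz, Matrix.card_GL_field] at hc
  have h1 : 2 ^ ((Cfsg.Agent.Lib.Helper17SylArith.dd (Fintype.card F) + 1) * k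
      + (k.factorial).factorization 2 + j) ∣ Nat.card (XX W z) := by
    rw [hc, pow_add, pow_add, pow_mul]
    apply Nat.mul_dvd_mul _ (dvd_refl _)
    apply Nat.mul_dvd_mul
    · apply pow_dvd_pow_of_dvd
      rw [← Cfsg.Agent.Lib.Helper17SylArithGL.val_gl2 _ hq]
      exact Nat.ordProj_dvd _ 2
    · exact Nat.ordProj_dvd _ 2
  have h3 := Nat.mul_dvd_mul h1 hdvd
  rw [Subgroup.card_mul_index, Matrix.card_GL_field, ← pow_succ] at h3
  exact Cfsg.Agent.Lib.Helper17SylArithGL.arith_gl3 _ hq k j hj h3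

end Cfsg.Agent.Lib.H48NrIdx
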