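import Mathlib
import Cfsg.Agent.Lib.H48NrDefs

set_option autoImplicit false

namespace Cfsg.Agent.Lib.H48NrL2

open Cfsg.Agent.Lib.Helper58SylDefs Cfsg.Agent.Lib.H48NrDefs

theorem entries {F : Type*} [Field F] (M N : Matrix (Fin 2) (Fin 2) F) (h : M * M = N) :
    M 0 0 * M 0 0 + M 0 1 * M 1 0 = N 0 0 ∧ M 0 0 * M 0 1 + M 0 1 * M 1 1 = N 0 1 ∧
    M 1 0 * M 0 0 + M 1 1 * M 1 0 = N 1 0 ∧ M 1 0 * M 0 1 + M 1 1 * M 1 1 = N 1 1 := by
  subst h
  simp [Matrix.mul_apply, Fin.sum_univ_two]

theorem lemA {F : Type*} [Field F] (hm1 : ¬ IsSquare (-1 : F)) (M : Matrix (Fin 2) (Fin 2) F)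
    (h : M * M = -1) : M.det = 1 := by
  obtain ⟨h00, h01, h10, h11⟩ := entries M _ h
  simp at h00 h01 h10 h11
  rw [Matrix.det_fin_two]
  by_cases ht : M 0 0 + M 1 1 = 0
  · have : M 1 1 = -M 0 0 := by linear_combination ht
    rw [this]
    linear_combination -h00
  · exfalso
    have hb : M 0 1 = 0 := by
      have : M 0 1 * (M 0 0 + M 1 1) = 0 := by linear_combination h01
      rcases mul_eq_zero.mp this with h | h
      · exact h
      · exact absurd h ht
    apply hm1
    refine ⟨M 0 0, ?_⟩
    rw [hb] at h00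
    linear_combination -h00

theorem lemB {F : Type*} [Field F] (M : Matrix (Fin 2) (Fin 2) F)
    (h : M * M = 1) : M = 1 ∨ M = -1 ∨ M.det = -1 := by
  obtain ⟨h00, h01, h10, h11⟩ := entries M _ h
  simp at h00 h01 h10 h11
  by_cases ht : M 0 0 + M 1 1 = 0
  · right; right
    rw [Matrix.det_fin_two]
    have : M 1 1 = -M 0 0 := by linear_combination ht
    rw [this]
    linear_combination -h00
  · have hb : M 0 1 = 0 := by
      have : M 0 1 * (M 0 0 + M 1 1) = 0 := by linear_combination h01
      rcases mul_eq_zero.mp this with h | h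
      · exact h
      · exact absurd h ht
    have hc : M 1 0 = 0 := by
      have : M 1 0 * (M 0 0 + M 1 1) = 0 := by linear_combination h10
      rcases mul_eq_zero.mp this with h | h
      · exact h
      · exact absurd h ht
    rw [hb] at h00 h11
    have ha : M 0 0 = 1 ∨ M 0 0 = -1 := by
      apply mul_self_eq_one_iff.mp
      linear_combination h00
    have hd : M 1 1 = 1 ∨ M 1 1 = -1 := by
      apply mul_self_eq_one_iff.mp
      linear_combination h11
    rcases ha with ha | ha <;> rcases hd with hd | hd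
    · left
      ext i j
      fin_cases i <;> fin_cases j <;> simp [ha, hd, hb, hc]
    · exfalso; apply ht; rw [ha, hd]; ring
    · exfalso; apply ht; rw [ha, hd]; ring
    · right; left
      ext i j
      fin_cases i <;> fin_cases j <;> simp [ha, hd, hb, hc]

/-- PIECE L2. -/
theorem l2 {F : Type*} [Field F] (h2 : (2 : F) ≠ 0) (hm1 : ¬ IsSquare (-1 : F))
    (c d : GL (Fin 2) F) (hc : c ^ 4 = -1) (hd : d * d = 1)
    (hx : (d * c * d⁻¹ * c⁻¹) * (d * c * d⁻¹ * c⁻¹) = 1) : d ∈ ZG F := by
  have hne : (1 : F) ≠ -1 := by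
    intro h
    apply h2
    linear_combination h
  have coeB : ∀ g : GL (Fin 2) F, g * g = 1 → g = 1 ∨ g = -1 ∨
      (g : Matrix (Fin 2) (Fin 2) F).det = -1 := by
    intro g hg
    have h1 : (g : Matrix (Fin 2) (Fin 2) F) * g = 1 := by
      rw [← Units.val_mul, hg, Units.val_one]
    rcases lemB _ h1 with h | h | h
    · left; exact Units.ext h
    · right; left; apply Units.ext; rw [h, Units.val_neg, Units.val_one]
    · right; right; exact h
  have coeA : ∀ g : GL (Fin 2) F, g * g = -1 → (g : Matrix (Fin 2) (Fin 2) F).det = 1 := by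
    intro g hg
    apply lemA hm1
    rw [← Units.val_mul, hg, Units.val_neg, Units.val_one]
  have hdetx : ((d * c * d⁻¹ * c⁻¹ : GL (Fin 2) F) : Matrix (Fin 2) (Fin 2) F).det = 1 := by
    have h1 : Matrix.GeneralLinearGroup.det (d * c * d⁻¹ * c⁻¹) = 1 := by
      rw [map_mul, map_mul, map_mul, map_inv, map_inv]
      rw [mul_comm (Matrix.GeneralLinearGroup.det d), mul_assoc (Matrix.GeneralLinearGroup.det c),
        mul_inv_cancel, mul_one, mul_inv_cancel]
    have h3 := congrArg Units.val h1
    rw [Matrix.GeneralLinearGroup.val_det_apply, Units.val_one] at h3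
    exact h3
  -- `d` commutes with `c * c`
  have hcomm : d * (c * c) = (c * c) * d := by
    rcases coeB _ hx with h | h | h
    · have h3 : d * c = c * d := by
        calc d * c = (d * c * d⁻¹ * c⁻¹) * (c * d) := by group
          _ = c * d := by rw [h, one_mul]
      calc d * (c * c) = (d * c) * c := by group
        _ = (c * d) * c := by rw [h3]
        _ = c * (d * c) := by group
        _ = c * (c * d) := by rw [h3]
        _ = (c * c) * d := by group
    · have h3 : d * c = -(c * d) := by
        calc d * c = (d * c * d⁻¹ * c⁻¹) * (c * d) := by group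
          _ = -(c * d) := by rw [h]; simp
      calc d * (c * c) = (d * c) * c := by group
        _ = (-(c * d)) * c := by rw [h3]
        _ = -(c * (d * c)) := by rw [neg_mul, mul_assoc]
        _ = -(c * (-(c * d))) := by rw [h3]
        _ = (c * c) * d := by rw [mul_neg, neg_neg, mul_assoc]
    · rw [hdetx] at h
      exact absurd h hne
  have hii : (c * c) * (c * c) = -1 := by
    rw [← hc, show (4 : ℕ) = 2 + 2 from rfl, pow_add, pow_two]
  rcases coeB d hd with h | h | h
  · exact Or.inl h
  · exact Or.inr h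
  · exfalso
    have h5 : (d * (c * c)) * (d * (c * c)) = -1 := by
      calc (d * (c * c)) * (d * (c * c)) = d * ((c * c) * d) * (c * c) := by group
        _ = d * (d * (c * c)) * (c * c) := by rw [hcomm]
        _ = (d * d) * ((c * c) * (c * c)) := by group
        _ = -1 := by rw [hd, hii, one_mul]
    have h6 := coeA _ h5
    have h7 := coeA _ hii
    rw [Units.val_mul, Matrix.det_mul, h7, h, mul_one] at h6
    exact hne h6.symm

end Cfsg.Agent.Lib.H48NrL2
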