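import Mathlib
import Cfsg.Agent.Lib.H48NrDefs
import Cfsg.Agent.Lib.Helper73SylWrcard

set_option autoImplicit false

namespace Cfsg.Agent.Lib.H48NrMemX

open Cfsg.Agent.Lib.Helper58SylDefs Cfsg.Agent.Lib.H48NrDefs

theorem mem_XX {G D₀ : Type*} [Group G] [Group D₀] {k : ℕ} (W : WD G D₀ k) (z : G) (hz : WZ W z)
    (x : G) : x ∈ XX W z ↔ ∃ (d : Fin k → D₀) (π : Equiv.Perm (Fin k)),
      x = W.B d * W.Pm π ∨ x = W.B d * W.Pm π * z := by
  have hmemH : ∀ s, s ∈ W.wr ⊤ ⊤ ↔ ∃ (d : Fin k → D₀) (π : Equiv.Perm (Fin k)), s = W.B d * W.Pm π := by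
    intro s
    rw [Helper73SylWrcard.wr_eq_S0]
    constructor
    · rintro ⟨d, -, π, -, rfl⟩
      exact ⟨d, π, rfl⟩
    · rintro ⟨d, π, rfl⟩
      exact ⟨d, fun _ => Subgroup.mem_top _, π, Subgroup.mem_top _, rfl⟩
  have hcomm : ∀ s ∈ W.wr ⊤ ⊤, z * s = s * z := by
    intro s hs
    obtain ⟨d, π, rfl⟩ := (hmemH s).mp hs
    rw [← mul_assoc, hz.commB, mul_assoc, hz.commP, mul_assoc]
  have hzinv : z⁻¹ = z := by
    rw [inv_eq_iff_mul_eq_one]; exact hz.sq
  let T : Subgroup G :=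
    { carrier := {x | ∃ s ∈ W.wr ⊤ ⊤, x = s ∨ x = s * z}
      one_mem' := ⟨1, Subgroup.one_mem _, Or.inl rfl⟩
      mul_mem' := by
        intro a b ⟨s, hs, h1⟩ ⟨s', hs', h2⟩
        rcases h1 with h1 | h1 <;> rcases h2 with h2 | h2
        · exact ⟨s * s', Subgroup.mul_mem _ hs hs', Or.inl (by rw [h1, h2])⟩
        · exact ⟨s * s', Subgroup.mul_mem _ hs hs', Or.inr (by rw [h1, h2]; group)⟩
        · refine ⟨s * s', Subgroup.mul_mem _ hs hs', Or.inr ?_⟩
          rw [h1, h2, mul_assoc, hcomm s' hs', mul_assoc]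
        · refine ⟨s * s', Subgroup.mul_mem _ hs hs', Or.inl ?_⟩
          rw [h1, h2]
          calc s * z * (s' * z) = s * (z * s') * z := by group
            _ = s * (s' * z) * z := by rw [hcomm s' hs']
            _ = s * s' * (z * z) := by group
            _ = s * s' := by rw [hz.sq, mul_one]
      inv_mem' := by
        intro a ⟨s, hs, h1⟩
        rcases h1 with h1 | h1
        · exact ⟨s⁻¹, Subgroup.inv_mem _ hs, Or.inl (by rw [h1])⟩
        · refine ⟨s⁻¹, Subgroup.inv_mem _ hs, Or.inr ?_⟩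
          rw [h1, mul_inv_rev, hzinv, hcomm _ (Subgroup.inv_mem _ hs)] }
  constructor
  · intro hx
    have hle : XX W z ≤ T := by
      unfold XX
      apply sup_le
      · intro s hs
        exact ⟨s, hs, Or.inl rfl⟩
      · rw [Subgroup.zpowers_le]
        exact ⟨1, Subgroup.one_mem _, Or.inr (by simp)⟩
    obtain ⟨s, hs, h⟩ := hle hx
    obtain ⟨d, π, rfl⟩ := (hmemH s).mp hs
    exact ⟨d, π, h⟩
  · rintro ⟨d, π, rfl | rfl⟩
    · exact Subgroup.mem_sup_left ((hmemH _).mpr ⟨d, π, rfl⟩)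
    · exact Subgroup.mul_mem _ (Subgroup.mem_sup_left ((hmemH _).mpr ⟨d, π, rfl⟩))
        (Subgroup.mem_sup_right (Subgroup.mem_zpowers z))

end Cfsg.Agent.Lib.H48NrMemX
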