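import Mathlib
import Cfsg.Prelude.Def_Transfer
import Cfsg.Agent.Lib.Helper58SylDefs
import Cfsg.Agent.Lib.Helper73SylWrcard

/-! Normal elementary abelian subgroups of Sylow subgroups from subgroups of index prime to `p`,
and the central elementary abelian subgroup of a wreath datum. -/

set_option autoImplicit false

namespace Cfsg.Agent.Lib.Helper48NormRank

open Cfsg.Agent.Lib.Helper58SylDefs

theorem to_subtype {G : Type*} [Group G] (p : ℕ) (S E1 : Subgroup G) (hle : E1 ≤ S)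
    (hnorm : ∀ s ∈ S, ∀ e ∈ E1, s * e * s⁻¹ ∈ E1) (hE : Cfsg.IsElementaryAbelian p E1) :
    ∃ E : Subgroup ↥S, E.Normal ∧ Cfsg.IsElementaryAbelian p E ∧ Nat.card E = Nat.card E1 := by
  refine ⟨E1.subgroupOf S, ⟨?_⟩, ⟨⟨⟨?_⟩⟩, ?_⟩, ?_⟩
  · intro e he s
    rw [Subgroup.mem_subgroupOf] at he ⊢
    exact hnorm s s.2 e he
  · rintro ⟨a, ha⟩ ⟨b, hb⟩
    rw [Subgroup.mem_subgroupOf] at ha hb
    have := hE.1.is_comm.comm ⟨a, ha⟩ ⟨b, hb⟩
    apply Subtype.ext
    apply Subtype.ext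
    exact congrArg (fun x : ↥E1 => (x : G)) this
  · intro a ha
    rw [Subgroup.mem_subgroupOf] at ha
    apply Subtype.ext
    exact hE.2 a ha
  · exact Nat.card_congr (Subgroup.subgroupOfEquivOfLe hle).toEquiv

theorem exists_normal {G : Type*} [Group G] [Finite G] (p : ℕ) [Fact p.Prime]
    (W E0 : Subgroup G) (hE0W : E0 ≤ W) (hnorm : ∀ w ∈ W, ∀ e ∈ E0, w * e * w⁻¹ ∈ E0)
    (hE0 : Cfsg.IsElementaryAbelian p E0) (hidx : ¬ p ∣ W.index) (S : Sylow p G) :
    ∃ E : Subgroup ↥(S : Subgroup G), E.Normal ∧ Cfsg.IsElementaryAbelian p E ∧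
      Nat.card E = Nat.card E0 := by
  have hp : p.Prime := Fact.out
  have hpg : IsPGroup p (E0.subgroupOf W) := by
    intro a
    refine ⟨1, ?_⟩
    rw [pow_one]
    apply Subtype.ext
    apply Subtype.ext
    exact hE0.2 _ a.2
  obtain ⟨P, hP⟩ := hpg.exists_le_sylow
  have hPg : IsPGroup p ((P : Subgroup ↥W).map W.subtype) := P.2.map _
  have hPi : ¬ p ∣ ((P : Subgroup ↥W).map W.subtype).index := by
    rw [Subgroup.index_map_subtype]
    intro h
    rcases hp.dvd_mul.1 h with h | h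
    · exact P.not_dvd_index h
    · exact hidx h
  obtain ⟨g, hg⟩ := MulAction.exists_smul_eq G (hPg.toSylow hPi) S
  have hS : (S : Subgroup G) = ((P : Subgroup ↥W).map W.subtype).map (MulAut.conj g).toMonoidHom := by
    rw [← hg]
    rfl
  have hE0P : E0 ≤ (P : Subgroup ↥W).map W.subtype := by
    intro e he
    exact ⟨⟨e, hE0W he⟩, hP (Subgroup.mem_subgroupOf.2 he), rfl⟩
  have hcard : Nat.card (E0.map (MulAut.conj g).toMonoidHom) = Nat.card E0 :=
    (Nat.card_congr (E0.equivMapOfInjective _ (MulAut.conj g).injective).toEquiv).symm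
  rw [← hcard]
  apply to_subtype
  · rw [hS]
    exact Subgroup.map_mono hE0P
  · rw [hS]
    rintro _ ⟨s0, ⟨w, -, rfl⟩, rfl⟩ _ ⟨e, he, rfl⟩
    refine ⟨w * e * (w : G)⁻¹, hnorm w w.2 e he, ?_⟩
    simp [MulAut.conj_apply, mul_assoc]
  · refine ⟨⟨⟨?_⟩⟩, ?_⟩
    · rintro ⟨_, ⟨a, ha, rfl⟩⟩ ⟨_, ⟨b, hb, rfl⟩⟩
      apply Subtype.ext
      have := congrArg (fun x : ↥E0 => (x : G)) (hE0.1.is_comm.comm ⟨a, ha⟩ ⟨b, hb⟩)
      simp only [Subgroup.coe_mul] at this
      show (MulAut.conj g).toMonoidHom a * (MulAut.conj g).toMonoidHom b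
        = (MulAut.conj g).toMonoidHom b * (MulAut.conj g).toMonoidHom a
      rw [← map_mul, ← map_mul, this]
    · rintro _ ⟨a, ha, rfl⟩
      rw [← map_pow, hE0.2 a ha, map_one]

/-- the central elementary abelian subgroup of a wreath datum -/
theorem wd_central {G D₀ : Type*} [Group G] [Group D₀] {k : ℕ} (W : WD G D₀ k) (p : ℕ)
    (Z : Subgroup D₀) [Finite Z] (hZ : ∀ z ∈ Z, ∀ d : D₀, d * z = z * d) (hZp : ∀ z ∈ Z, z ^ p = 1) :
    ∃ E0 : Subgroup G, E0 ≤ W.wr ⊤ ⊤ ∧ (∀ w ∈ W.wr ⊤ ⊤, ∀ e ∈ E0, w * e * w⁻¹ ∈ E0) ∧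
      Cfsg.IsElementaryAbelian p E0 ∧ Nat.card E0 = Nat.card Z ^ k := by
  refine ⟨(Subgroup.pi Set.univ (fun _ : Fin k => Z)).map W.B, ?_, ?_, ⟨⟨⟨?_⟩⟩, ?_⟩, ?_⟩
  · refine le_trans (Subgroup.map_mono ?_) le_sup_left
    intro x _
    rw [Subgroup.mem_pi]
    intro i _
    exact Subgroup.mem_top _
  · have hle : W.wr ⊤ ⊤ ≤ Subgroup.normalizer
        (((Subgroup.pi Set.univ (fun _ : Fin k => Z)).map W.B : Subgroup G) : Set G) := by
      have hP : ∀ π : Equiv.Perm (Fin k), ∀ h ∈ (Subgroup.pi Set.univ (fun _ : Fin k => Z)).map W.B,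
          W.Pm π * h * (W.Pm π)⁻¹ ∈ (Subgroup.pi Set.univ (fun _ : Fin k => Z)).map W.B := by
        rintro π _ ⟨z, hz, rfl⟩
        rw [W.conj]
        refine ⟨_, ?_, rfl⟩
        rw [SetLike.mem_coe, Subgroup.mem_pi] at hz ⊢
        intro i _
        exact hz _ (Set.mem_univ _)
      apply sup_le
      · rintro _ ⟨d, -, rfl⟩
        rw [Subgroup.mem_normalizer_iff]
        intro h
        constructor
        · rintro ⟨z, hz, rfl⟩
          refine ⟨z, hz, ?_⟩
          rw [SetLike.mem_coe, Subgroup.mem_pi] at hz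
          rw [← map_mul, ← map_inv, ← map_mul]
          congr 1
          funext i
          simp only [Pi.mul_apply, Pi.inv_apply]
          rw [hZ (z i) (hz i (Set.mem_univ _)) (d i)]
          group
        · rintro ⟨z, hz, hzh⟩
          refine ⟨z, hz, ?_⟩
          have hz' := hz
          rw [SetLike.mem_coe, Subgroup.mem_pi] at hz'
          have : h = (W.B d)⁻¹ * W.B z * W.B d := by rw [hzh]; group
          rw [this, ← map_inv, ← map_mul, ← map_mul]
          congr 1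
          funext i
          simp only [Pi.mul_apply, Pi.inv_apply]
          rw [mul_assoc, ← hZ (z i) (hz' i (Set.mem_univ _)) (d i)]
          group
      · rintro _ ⟨π, -, rfl⟩
        rw [Subgroup.mem_normalizer_iff]
        intro h
        constructor
        · exact hP π h
        · intro hh
          have := hP π⁻¹ _ hh
          rw [map_inv] at this
          simpa [mul_assoc] using this
    intro w hw e he
    exact (Subgroup.mem_normalizer_iff.1 (hle hw) e).1 he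
  · rintro ⟨_, ⟨a, ha, rfl⟩⟩ ⟨_, ⟨b, hb, rfl⟩⟩
    apply Subtype.ext
    show W.B a * W.B b = W.B b * W.B a
    rw [← map_mul, ← map_mul]
    congr 1
    funext i
    rw [SetLike.mem_coe, Subgroup.mem_pi] at hb
    exact hZ (b i) (hb i (Set.mem_univ _)) (a i)
  · rintro _ ⟨a, ha, rfl⟩
    rw [← map_pow]
    rw [SetLike.mem_coe, Subgroup.mem_pi] at ha
    have : a ^ p = 1 := by
      funext i
      exact hZp (a i) (ha i (Set.mem_univ _))
    rw [this, map_one]
  · have h := Cfsg.Agent.Lib.Helper73SylWrcard.card_wr W Z ⊥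
    rw [Subgroup.card_bot, mul_one] at h
    rw [← h]
    unfold WD.wr
    rw [Subgroup.map_bot, sup_bot_eq]

end Cfsg.Agent.Lib.Helper48NormRank
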