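import Mathlib
import Cfsg.Agent.Lib.H48NrDefs
import Cfsg.Agent.Lib.H48NrMemX
import Cfsg.Agent.Lib.Helper48NormRank

set_option autoImplicit false

namespace Cfsg.Agent.Lib.H48NrLow

open Cfsg.Agent.Lib.Helper58SylDefs Cfsg.Agent.Lib.H48NrDefs

/-- PIECE Low.  The normal elementary abelian subgroup `Z^k × ⟨z⟩` of `(D₀ wr S_k) × ⟨z⟩`. -/
theorem exists_E0 {G D₀ : Type*} [Group G] [Group D₀] {k : ℕ} (W : WD G D₀ k) (z : G)
    (hz : WZ W z) (Z : Subgroup D₀) [Finite Z] (hZ : ∀ x ∈ Z, ∀ d : D₀, d * x = x * d)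
    (hZ2 : ∀ x ∈ Z, x ^ 2 = 1) :
    ∃ E0 : Subgroup G, NEA (XX W z) E0 ∧
      Nat.card E0 = Nat.card Z ^ k * Nat.card (Subgroup.zpowers z) := by
  obtain ⟨E1, hE1le, hE1n, hE1ea, hE1c⟩ := Cfsg.Agent.Lib.Helper48NormRank.wd_central W 2 Z hZ hZ2
  have hBP : ∀ d π, W.B d * W.Pm π ∈ W.wr ⊤ ⊤ := by
    intro d π
    rw [Cfsg.Agent.Lib.Helper73SylWrcard.wr_eq_S0]
    exact ⟨d, fun _ => Subgroup.mem_top _, π, Subgroup.mem_top _, rfl⟩
  have hzw : ∀ w ∈ W.wr ⊤ ⊤, z * w = w * z := by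
    intro w hw
    rw [Cfsg.Agent.Lib.Helper73SylWrcard.wr_eq_S0] at hw
    obtain ⟨d, -, π, -, rfl⟩ := hw
    calc z * (W.B d * W.Pm π) = (z * W.B d) * W.Pm π := by group
      _ = W.B d * (z * W.Pm π) := by rw [hz.commB]; group
      _ = W.B d * W.Pm π * z := by rw [hz.commP]; group
  have hyw : ∀ y, (y = 1 ∨ y = z) → ∀ w ∈ W.wr ⊤ ⊤, y * w = w * y := by
    rintro y (rfl | rfl) w hw
    · simp
    · exact hzw w hw
  have hyy : ∀ y y', (y = 1 ∨ y = z) → (y' = 1 ∨ y' = z) → y * y' = y' * y := by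
    rintro y y' (rfl | rfl) (rfl | rfl) <;> simp
  have hysq : ∀ y, (y = 1 ∨ y = z) → y * y = 1 := by
    rintro y (rfl | rfl)
    · simp
    · exact hz.sq
  have hymem : ∀ y, (y = 1 ∨ y = z) → y ∈ Subgroup.zpowers z := by
    rintro y (rfl | rfl)
    · exact Subgroup.one_mem _
    · exact Subgroup.mem_zpowers _
  have hzp : ∀ y ∈ Subgroup.zpowers z, y = 1 ∨ y = z := by
    rintro _ ⟨j, rfl⟩
    have hz2 : z ^ (2 : ℤ) = 1 := by rw [zpow_two, hz.sq]
    rcases Int.even_or_odd' j with ⟨m, rfl | rfl⟩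
    · left
      show z ^ (2 * m) = 1
      rw [zpow_mul, hz2, one_zpow]
    · right
      show z ^ (2 * m + 1) = z
      rw [zpow_add, zpow_mul, hz2, one_zpow, one_mul, zpow_one]
  have hcomm : ∀ (a : E1) (y : Subgroup.zpowers z),
      Commute (E1.subtype a) ((Subgroup.zpowers z).subtype y) := by
    intro a y
    exact (hyw y (hzp y y.2) a (hE1le a.2)).symm
  let f := MonoidHom.noncommCoprod E1.subtype (Subgroup.zpowers z).subtype hcomm
  have hrange : f.range = E1 ⊔ Subgroup.zpowers z := by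
    rw [MonoidHom.noncommCoprod_range, Subgroup.range_subtype, Subgroup.range_subtype]
  have hinj : Function.Injective f := by
    rw [MonoidHom.noncommCoprod_injective]
    refine ⟨Subtype.val_injective, Subtype.val_injective, ?_⟩
    rw [Subgroup.range_subtype, Subgroup.range_subtype, disjoint_iff, eq_bot_iff]
    rintro x ⟨hx1, hx2⟩
    rcases hzp x hx2 with h | h
    · exact h
    · have h1 : z ∈ W.wr ⊤ ⊤ := h ▸ hE1le hx1
      rw [Cfsg.Agent.Lib.Helper73SylWrcard.wr_eq_S0] at h1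
      obtain ⟨d, -, π, -, hzd⟩ := h1
      rw [Subgroup.mem_bot, h]
      exact hz.disj d π hzd
  have hmem : ∀ e ∈ E1 ⊔ Subgroup.zpowers z, ∃ a ∈ E1, ∃ y, (y = 1 ∨ y = z) ∧ e = a * y := by
    intro e he
    rw [← hrange] at he
    obtain ⟨⟨a, y⟩, rfl⟩ := he
    exact ⟨a, a.2, y, hzp y y.2, rfl⟩
  have hE1comm : ∀ a ∈ E1, ∀ a' ∈ E1, a * a' = a' * a := by
    intro a ha a' ha'
    exact congrArg Subtype.val (hE1ea.1.is_comm.comm ⟨a, ha⟩ ⟨a', ha'⟩)
  refine ⟨E1 ⊔ Subgroup.zpowers z, ⟨sup_le_sup_right hE1le _, ?_, ⟨⟨⟨?_⟩⟩, ?_⟩⟩, ?_⟩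
  · intro s hs e he
    obtain ⟨d, π, hcase⟩ := (Cfsg.Agent.Lib.H48NrMemX.mem_XX W z hz s).mp hs
    obtain ⟨a, ha, y, hy, rfl⟩ := hmem e he
    obtain ⟨y', hy', hs'⟩ : ∃ y', (y' = 1 ∨ y' = z) ∧ s = W.B d * W.Pm π * y' := by
      rcases hcase with h | h
      · exact ⟨1, Or.inl rfl, by rw [h, mul_one]⟩
      · exact ⟨z, Or.inr rfl, h⟩
    set w := W.B d * W.Pm π with hw
    have hww : w ∈ W.wr ⊤ ⊤ := hBP d π
    have e1 : s * (a * y) * s⁻¹ = (w * a * w⁻¹) * y := by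
      rw [hs']
      calc w * y' * (a * y) * (w * y')⁻¹ = w * (y' * a) * y * y'⁻¹ * w⁻¹ := by group
        _ = w * (a * y') * y * y'⁻¹ * w⁻¹ := by rw [hyw y' hy' a (hE1le ha)]
        _ = w * a * (y' * y) * y'⁻¹ * w⁻¹ := by group
        _ = w * a * (y * y') * y'⁻¹ * w⁻¹ := by rw [hyy y' y hy' hy]
        _ = w * a * (y * w⁻¹) := by group
        _ = w * a * (w⁻¹ * y) := by rw [hyw y hy w⁻¹ (Subgroup.inv_mem _ hww)]
        _ = (w * a * w⁻¹) * y := by group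
    rw [e1]
    exact Subgroup.mul_mem _ (Subgroup.mem_sup_left (hE1n w hww a ha)) (Subgroup.mem_sup_right (hymem y hy))
  · rintro ⟨e, he⟩ ⟨e', he'⟩
    apply Subtype.ext
    obtain ⟨a, ha, y, hy, rfl⟩ := hmem e he
    obtain ⟨a', ha', y', hy', rfl⟩ := hmem e' he'
    show a * y * (a' * y') = a' * y' * (a * y)
    calc a * y * (a' * y') = a * (y * a') * y' := by group
      _ = a * (a' * y) * y' := by rw [hyw y hy a' (hE1le ha')]
      _ = (a * a') * (y * y') := by group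
      _ = (a' * a) * (y' * y) := by rw [hE1comm a ha a' ha', hyy y y' hy hy']
      _ = a' * (a * y') * y := by group
      _ = a' * (y' * a) * y := by rw [hyw y' hy' a (hE1le ha)]
      _ = a' * y' * (a * y) := by group
  · intro e he
    obtain ⟨a, ha, y, hy, rfl⟩ := hmem e he
    rw [pow_two]
    calc a * y * (a * y) = a * (y * a) * y := by group
      _ = a * (a * y) * y := by rw [hyw y hy a (hE1le ha)]
      _ = (a * a) * (y * y) := by group
      _ = 1 := by rw [hysq y hy, mul_one, ← pow_two, hE1ea.2 a ha]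
  · rw [← hrange, ← hE1c, ← Nat.card_prod]
    exact (Nat.card_congr (MonoidHom.ofInjective hinj).toEquiv).symm

end Cfsg.Agent.Lib.H48NrLow
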