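import Mathlib
import Cfsg.Agent.Lib.H48NrDefs
import Cfsg.Agent.Lib.H48NrMemX

set_option autoImplicit false

namespace Cfsg.Agent.Lib.H48NrShape

open Cfsg.Agent.Lib.Helper58SylDefs Cfsg.Agent.Lib.H48NrDefs

/-- PIECE Shape.  Shape of the elements of a normal elementary abelian
subgroup `E` of `P ≤ (D₀ wr S_k) × ⟨z⟩`, when `P` contains all `b i := B (Pi.mulSingle i c)`. -/
theorem shape {G D₀ : Type*} [Group G] [Group D₀] {k : ℕ} (W : WD G D₀ k) (z : G) (hz : WZ W z)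
    (P E : Subgroup G) (hPX : P ≤ XX W z) (c : D₀) (hc2 : c * c ≠ 1)
    (hcP : ∀ i, W.B (Pi.mulSingle i c) ∈ P) (hE : NEA P E) (Z0 : Subgroup D₀)
    (hL2 : ∀ d : D₀, d * d = 1 → (d * c * d⁻¹ * c⁻¹) * (d * c * d⁻¹ * c⁻¹) = 1 → d ∈ Z0) :
    ∀ e ∈ E, ∃ ζ : Fin k → D₀, (∀ i, ζ i ∈ Z0) ∧ (e = W.B ζ ∨ e = W.B ζ * z) := by
  classical
  intro e he
  have heP : e ∈ P := hE.1 he
  obtain ⟨d, π, hcase⟩ := (Cfsg.Agent.Lib.H48NrMemX.mem_XX W z hz e).mp (hPX heP)
  obtain ⟨y, hy, hey⟩ : ∃ y, (y = 1 ∨ y = z) ∧ e = W.B d * W.Pm π * y := by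
    rcases hcase with h | h
    · exact ⟨1, Or.inl rfl, by rw [h, mul_one]⟩
    · exact ⟨z, Or.inr rfl, h⟩
  have hyB : ∀ a, y * W.B a = W.B a * y := by
    rcases hy with rfl | rfl
    · intro a; simp
    · exact hz.commB
  have hyy : y * y = 1 := by
    rcases hy with rfl | rfl
    · simp
    · exact hz.sq
  have hBinj : Function.Injective W.B := by
    rw [injective_iff_map_eq_one]
    intro a ha
    exact (W.inj a 1 (by rw [map_one, mul_one, ha])).1
  have hconj : ∀ a, e * W.B a * e⁻¹ = W.B (d * (fun l => a (π⁻¹ l)) * d⁻¹) := by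
    intro a
    rw [hey]
    have h1 : y * W.B a * y⁻¹ = W.B a := by rw [hyB, mul_assoc, mul_inv_cancel, mul_one]
    calc W.B d * W.Pm π * y * W.B a * (W.B d * W.Pm π * y)⁻¹
        = W.B d * (W.Pm π * (y * W.B a * y⁻¹) * (W.Pm π)⁻¹) * (W.B d)⁻¹ := by group
      _ = W.B d * W.B (fun l => a (π⁻¹ l)) * (W.B d)⁻¹ := by rw [h1, W.conj]
      _ = _ := by rw [map_mul, map_mul, map_inv]
  have hsingle : ∀ i, (fun l => (Pi.mulSingle i c : Fin k → D₀) (π⁻¹ l)) = Pi.mulSingle (π i) c := by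
    intro i
    funext l
    by_cases h : l = π i
    · subst h; simp
    · rw [Pi.mulSingle_eq_of_ne h, Pi.mulSingle_eq_of_ne]
      intro h'
      apply h
      rw [← h']; simp
  have hu : ∀ i, (d * Pi.mulSingle (π i) c * d⁻¹ * (Pi.mulSingle i c)⁻¹) *
      (d * Pi.mulSingle (π i) c * d⁻¹ * (Pi.mulSingle i c)⁻¹) = 1 := by
    intro i
    have hw : e * (W.B (Pi.mulSingle i c) * e⁻¹ * (W.B (Pi.mulSingle i c))⁻¹) ∈ E :=
      E.mul_mem he (hE.2.1 _ (hcP i) _ (E.inv_mem he))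
    have hw2 := hE.2.2.2 _ hw
    have hweq : e * (W.B (Pi.mulSingle i c) * e⁻¹ * (W.B (Pi.mulSingle i c))⁻¹) =
        W.B (d * Pi.mulSingle (π i) c * d⁻¹ * (Pi.mulSingle i c)⁻¹) := by
      calc e * (W.B (Pi.mulSingle i c) * e⁻¹ * (W.B (Pi.mulSingle i c))⁻¹)
          = (e * W.B (Pi.mulSingle i c) * e⁻¹) * (W.B (Pi.mulSingle i c))⁻¹ := by group
        _ = W.B (d * Pi.mulSingle (π i) c * d⁻¹) * (W.B (Pi.mulSingle i c))⁻¹ := by
            rw [hconj, hsingle]
        _ = _ := by rw [← map_inv, ← map_mul]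
    rw [hweq, pow_two, ← map_mul] at hw2
    exact hBinj (hw2.trans (map_one _).symm)
  have hπ : π = 1 := by
    refine Equiv.ext fun i => ?_
    by_contra hne
    have hne' : π i ≠ i := hne
    have h1 := congrFun (hu i) i
    simp only [Pi.mul_apply, Pi.inv_apply, Pi.mulSingle_eq_same, Pi.one_apply,
      Pi.mulSingle_eq_of_ne (Ne.symm hne'), mul_one, mul_inv_cancel, one_mul] at h1
    apply hc2
    have h2 : (c * c)⁻¹ = 1 := by rw [mul_inv_rev]; exact h1
    exact inv_eq_one.mp h2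
  subst hπ
  have hdd : d * d = 1 := by
    have h1 := hE.2.2.2 e he
    rw [hey, map_one, mul_one, pow_two] at h1
    have h2 : W.B d * y * (W.B d * y) = W.B (d * d) := by
      calc W.B d * y * (W.B d * y) = W.B d * (y * W.B d) * y := by group
        _ = W.B d * (W.B d * y) * y := by rw [hyB]
        _ = W.B d * W.B d * (y * y) := by group
        _ = W.B (d * d) := by rw [hyy, mul_one, map_mul]
    rw [h2] at h1
    exact hBinj (h1.trans (map_one _).symm)
  refine ⟨d, ?_, ?_⟩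
  · intro i
    apply hL2 (d i)
    · exact congrFun hdd i
    · have h1 := congrFun (hu i) i
      simpa using h1
  · rw [hey, map_one, mul_one]
    rcases hy with rfl | rfl
    · left; rw [mul_one]
    · right; rfl

end Cfsg.Agent.Lib.H48NrShape
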