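import Mathlib
import Cfsg.Agent.Lib.H48NrDefs


set_option autoImplicit false

namespace Cfsg.Agent.Lib.H48NrSyl

open Cfsg.Agent.Lib.Helper58SylDefs Cfsg.Agent.Lib.H48NrDefs

/-- PIECE Syl.  A subgroup of odd index contains a Sylow 2-subgroup of `G` containing a given
2-subgroup. -/
theorem exists_sylow {G : Type*} [Group G] [Finite G] (X C : Subgroup G) (hCX : C ≤ X)
    (hC : IsPGroup 2 C) (hidx : ¬ 2 ∣ X.index) :
    ∃ P : Sylow 2 G, (P : Subgroup G) ≤ X ∧ C ≤ (P : Subgroup G) := by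
  haveI : Fact (Nat.Prime 2) := ⟨Nat.prime_two⟩
  have hC' : IsPGroup 2 (C.subgroupOf X) := hC.comap_subtype
  obtain ⟨P₀, hP₀⟩ := hC'.exists_le_sylow
  have hp : IsPGroup 2 ((P₀ : Subgroup X).map X.subtype) := P₀.2.map _
  have hi : ¬ 2 ∣ ((P₀ : Subgroup X).map X.subtype).index := by
    rw [Subgroup.index_map_subtype]
    intro h
    rcases (Nat.Prime.dvd_mul Nat.prime_two).mp h with h | h
    · exact P₀.not_dvd_index h
    · exact hidx h
  refine ⟨hp.toSylow hi, ?_, ?_⟩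
  · show (P₀ : Subgroup X).map X.subtype ≤ X
    exact Subgroup.map_subtype_le _
  · show C ≤ (P₀ : Subgroup X).map X.subtype
    intro c hc
    exact ⟨⟨c, hCX hc⟩, hP₀ (Subgroup.mem_subgroupOf.mpr hc), rfl⟩

end Cfsg.Agent.Lib.H48NrSyl
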