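import Mathlib
import Cfsg.Agent.Lib.Helper46SLn3
import Cfsg.Agent.Lib.Helper46DZ2
import Cfsg.Agent.Lib.Helper82Quot

set_option autoImplicit false
set_option linter.unusedSectionVars false
set_option linter.unusedSimpArgs false

/-! The Steinberg character of `SL_{m+1}(F)` is trivial on the centre; the Steinberg character of `PSL_n(F)`. -/

namespace Cfsg.Agent.Lib.Helper46SLn6

open Matrix Matrix.SpecialLinearGroup Cfsg.Agent.Lib.Helper46SLn1 Cfsg.Agent.Lib.Helper46SLn2
open Cfsg Cfsg.Agent.Lib.Helper8BN Cfsg.Agent.Lib.Helper46Len Cfsg.Agent.Lib.Helper46BN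
open Cfsg.Agent.Lib.Helper46BNSt Cfsg.Agent.Lib.Helper46BNIrr Cfsg.Agent.Lib.Helper46BNApp
open Cfsg.Agent.Lib.Helper46SLn3

section A
variable {m : ℕ} {F : Type*} [Field F] [Finite F]

local notation "SLm" => Matrix.SpecialLinearGroup (Fin (m + 1)) F

theorem center_le_TT {n : ℕ} {z : Matrix.SpecialLinearGroup (Fin n) F}
    (hz : z ∈ Subgroup.center (Matrix.SpecialLinearGroup (Fin n) F)) : z ∈ TT n F := by
  rw [Matrix.SpecialLinearGroup.mem_center_iff] at hz
  obtain ⟨r, -, hr⟩ := hz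
  rw [mem_TT']
  intro i j hij
  rw [← hr]
  simp [Matrix.scalar_apply, Matrix.diagonal_apply_ne _ hij]

/-- **The Steinberg character of `SL_{m+1}(F)`**, with its value on the centre. -/
theorem exists_St' : ∃ χ : SLm → ℂ, IsIrrCharacter SLm χ ∧ χ 1 = (Nat.card (UU (m + 1) F) : ℂ) ∧
    (∀ u ∈ UU (m + 1) F, u ≠ 1 → χ u = 0) ∧ ∀ z ∈ Subgroup.center SLm, χ z = χ 1 := by
  classical
  have : Fintype SLm := Fintype.ofFinite _
  set P := bn m F with hP
  set Sf : Finset (Wg P) := (Set.toFinite (SW P)).toFinset with hSf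
  have hSf' : (Sf : Set (Wg P)) = SW P := Set.Finite.coe_toFinset _
  obtain ⟨m0, h0⟩ := exists_mon (F := F) (Fin.revPerm : Equiv.Perm (Fin (m + 1)))
  have hres : ∀ b : BB (m + 1) F, St P Sf b.1 = Cfsg.fixedPointCharacter ((TT (m + 1) F).subgroupOf (BB (m + 1) F)) b := by
    intro b
    refine St_restrict P Sf hSf' ((TT (m + 1) F).subgroupOf (BB (m + 1) F)) (m0 := m0) ⟨_, h0⟩ ?_ ?_ b
    · intro β
      constructor
      · intro h
        have := NN_conj_TT (g := m0⁻¹) ⟨_, h0.inv⟩ (show β.1 ∈ TT (m + 1) F from h)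
        rw [inv_inv] at this
        exact TT_le_BB this
      · intro h
        exact mem_TT_of_rev h0 β.2 h
    · intro β hβ
      exact TT_le_NN hβ
  have hone : St P Sf 1 = (Nat.card (UU (m + 1) F) : ℂ) := by
    have := hres 1
    rw [Subgroup.coe_one] at this
    rw [this, ← card_quot]
    unfold Cfsg.fixedPointCharacter
    rw [MulAction.fixedBy_one_eq_univ]
    congr 1
    exact Nat.card_congr (Equiv.Set.univ _)
  refine ⟨St P Sf, St_irr P Sf hSf', hone, ?_, ?_⟩
  · intro u hu hne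
    have := hres ⟨u, UU_le_BB hu⟩
    rw [this]
    unfold Cfsg.fixedPointCharacter
    have hempty : IsEmpty (MulAction.fixedBy (BB (m + 1) F ⧸ (TT (m + 1) F).subgroupOf (BB (m + 1) F))
        (⟨u, UU_le_BB hu⟩ : BB (m + 1) F)) := by
      constructor
      rintro ⟨z, hz⟩
      induction z using QuotientGroup.induction_on with
      | H β =>
        rw [MulAction.mem_fixedBy] at hz
        change (((⟨u, UU_le_BB hu⟩ : BB (m + 1) F) * β : BB (m + 1) F) :
          BB (m + 1) F ⧸ (TT (m + 1) F).subgroupOf (BB (m + 1) F)) = _ at hz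
        rw [eq_comm, QuotientGroup.eq] at hz
        have h1 : β.1⁻¹ * (u * β.1) ∈ TT (m + 1) F := hz
        have h2 : β.1⁻¹ * u * β.1⁻¹⁻¹ ∈ UU (m + 1) F := BB_conj_UU ((BB (m + 1) F).inv_mem β.2) hu
        rw [inv_inv] at h2
        rw [← mul_assoc] at h1
        have h3 := UU_inf_TT h2 h1
        apply hne
        have : u = β.1 * (β.1⁻¹ * u * β.1) * β.1⁻¹ := by group
        rw [this, h3]; group
    rw [@Nat.card_of_isEmpty _ hempty, Nat.cast_zero]
  · intro z hz
    have hzT := center_le_TT hz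
    have := hres ⟨z, TT_le_BB hzT⟩
    rw [hone, this, ← card_quot]
    unfold Cfsg.fixedPointCharacter
    have huniv : MulAction.fixedBy (BB (m + 1) F ⧸ (TT (m + 1) F).subgroupOf (BB (m + 1) F))
        (⟨z, TT_le_BB hzT⟩ : BB (m + 1) F) = Set.univ := by
      ext y
      simp only [Set.mem_univ, iff_true]
      induction y using QuotientGroup.induction_on with
      | H β =>
        rw [MulAction.mem_fixedBy]
        change (((⟨z, TT_le_BB hzT⟩ : BB (m + 1) F) * β : BB (m + 1) F) :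
          BB (m + 1) F ⧸ (TT (m + 1) F).subgroupOf (BB (m + 1) F)) = _
        rw [eq_comm, QuotientGroup.eq]
        change β.1⁻¹ * (z * β.1) ∈ TT (m + 1) F
        rw [← Subgroup.mem_center_iff.1 hz β.1, inv_mul_cancel_left]
        exact hzT
    rw [huniv]
    congr 1
    exact Nat.card_congr (Equiv.Set.univ _)

end A

section B

variable {F : Type*} [Field F] [Fintype F] (p : ℕ) [Fact p.Prime] [CharP F p]

theorem steinberg_PSL (n : ℕ) (hn : 2 ≤ n) :
    ∃ χ : Matrix.ProjectiveSpecialLinearGroup (Fin n) F → ℂ,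
      Cfsg.IsIrrCharacter (Matrix.ProjectiveSpecialLinearGroup (Fin n) F) χ ∧
      ∀ P : Sylow p (Matrix.ProjectiveSpecialLinearGroup (Fin n) F), χ 1 = Nat.card P ∧
        ∀ x : Matrix.ProjectiveSpecialLinearGroup (Fin n) F, x ∈ P → x ≠ 1 → χ x = 0 := by
  classical
  obtain ⟨m, rfl⟩ : ∃ m, n = m + 1 := ⟨n - 1, by omega⟩
  obtain ⟨χ, hχ, h1, hU, hZ⟩ := exists_St' (m := m) (F := F)
  obtain ⟨ψ, hψ⟩ := Cfsg.Agent.Lib.Helper82Quot.exists_deflate
    (Subgroup.center (Matrix.SpecialLinearGroup (Fin (m + 1)) F)) ⟨χ, hχ⟩ hZ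
  have hψ' : ∀ g : Matrix.SpecialLinearGroup (Fin (m + 1)) F,
      (ψ : Matrix.ProjectiveSpecialLinearGroup (Fin (m + 1)) F → ℂ) (QuotientGroup.mk g) = χ g := by
    intro g
    exact congrFun (congrArg Subtype.val hψ) g
  obtain ⟨P0, hP0⟩ := Cfsg.Agent.Lib.Helper46DZ2.exists_sylow_UU (F := F) p (m + 1)
  refine ⟨ψ.1, ψ.2, ?_⟩
  intro P
  have hsurj : Function.Surjective (QuotientGroup.mk' (Subgroup.center (Matrix.SpecialLinearGroup (Fin (m + 1)) F))) :=
    QuotientGroup.mk'_surjective _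
  obtain ⟨Q, rfl⟩ := Sylow.mapSurjective_surjective hsurj p P
  obtain ⟨g, rfl⟩ := MulAction.exists_smul_eq (Matrix.SpecialLinearGroup (Fin (m + 1)) F) P0 Q
  have hmem : ∀ y, y ∈ g • P0 ↔ g⁻¹ * y * g ∈ UU (m + 1) F := by
    intro y
    change y ∈ ((g • P0 : Sylow p _) : Subgroup _) ↔ _
    rw [Sylow.coe_subgroup_smul, Subgroup.mem_pointwise_smul_iff_inv_smul_mem, hP0]
    simp [MulAut.smul_def, MulAut.conj_apply]
  have hcl := Cfsg.Agent.Lib.Helper83Char.irr_class hχ
  constructor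
  · have e1 : (ψ : Matrix.ProjectiveSpecialLinearGroup (Fin (m + 1)) F → ℂ) 1 = χ 1 := hψ' 1
    rw [e1, h1]
    congr 1
    have e2 : Nat.card (UU (m + 1) F) = Nat.card (g • P0 : Sylow p _) := by
      rw [← hP0]
      exact Nat.card_congr (Sylow.equiv P0 (g • P0)).toEquiv
    rw [e2]
    apply Nat.card_congr
    refine Equiv.ofBijective (fun y => ⟨QuotientGroup.mk' _ y.1, ?_⟩) ⟨?_, ?_⟩
    · change _ ∈ (((g • P0 : Sylow p _).mapSurjective hsurj : Sylow p _) : Subgroup (Matrix.SpecialLinearGroup (Fin (m + 1)) F ⧸ Subgroup.center (Matrix.SpecialLinearGroup (Fin (m + 1)) F)))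
      rw [Sylow.coe_mapSurjective]
      exact Subgroup.mem_map_of_mem _ y.2
    · intro y y' h
      have h2 : (QuotientGroup.mk y.1 : Matrix.ProjectiveSpecialLinearGroup (Fin (m + 1)) F) = QuotientGroup.mk y'.1 :=
        congrArg Subtype.val h
      rw [QuotientGroup.eq] at h2
      have h3 : g⁻¹ * (y.1⁻¹ * y'.1) * g ∈ UU (m + 1) F :=
        (hmem _).1 ((g • P0).mul_mem ((g • P0).inv_mem y.2) y'.2)
      have h4 : g⁻¹ * (y.1⁻¹ * y'.1) * g = y.1⁻¹ * y'.1 := by
        rw [mul_assoc, ← Subgroup.mem_center_iff.1 h2 g, inv_mul_cancel_left]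
      rw [h4] at h3
      have h5 := UU_inf_TT h3 (center_le_TT h2)
      rw [inv_mul_eq_one] at h5
      exact Subtype.ext h5
    · rintro ⟨x, hx⟩
      change _ ∈ (((g • P0 : Sylow p _).mapSurjective hsurj : Sylow p _) : Subgroup (Matrix.SpecialLinearGroup (Fin (m + 1)) F ⧸ Subgroup.center (Matrix.SpecialLinearGroup (Fin (m + 1)) F))) at hx
      rw [Sylow.coe_mapSurjective] at hx
      obtain ⟨y, hy, rfl⟩ := hx
      exact ⟨⟨y, hy⟩, rfl⟩
  · intro x hx hne
    change _ ∈ (((g • P0 : Sylow p _).mapSurjective hsurj : Sylow p _) : Subgroup (Matrix.SpecialLinearGroup (Fin (m + 1)) F ⧸ Subgroup.center (Matrix.SpecialLinearGroup (Fin (m + 1)) F))) at hx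
    rw [Sylow.coe_mapSurjective] at hx
    obtain ⟨y, hy, rfl⟩ := hx
    have hy' := (hmem y).1 hy
    have e1 : (ψ : Matrix.ProjectiveSpecialLinearGroup (Fin (m + 1)) F → ℂ) (QuotientGroup.mk' _ y) = χ y := hψ' y
    rw [e1]
    have e2 : χ y = χ (g⁻¹ * y * g) := by
      have := hcl y g⁻¹
      rw [inv_inv] at this
      exact this.symm
    rw [e2]
    apply hU _ hy'
    intro h
    apply hne
    have : y = 1 := by
      have : y = g * (g⁻¹ * y * g) * g⁻¹ := by group
      rw [this, h]; group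
    rw [this, map_one]

end B

end Cfsg.Agent.Lib.Helper46SLn6
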