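import Mathlib
import Cfsg.Agent.Lib.H49SmDefs
import Cfsg.Agent.Lib.H49SpXDefs
import Cfsg.Agent.S0300
import Cfsg.Agent.S2544
import Cfsg.Agent.Lib.Helper83Char

set_option autoImplicit false

/-! Project 2549 (Steinberg character of `POmega-_{2m+2}(q)`), piece `M1` (40m).

`m = 1`: by the landed `Cfsg.Agent.S0300.result`, `PΩ⁻₄(q) ≃* PSL₂(K)` for a field `K` of order `q²` (`K = GaloisField p (2 * k)` where `card F = p ^ k`: `FiniteField.card F p`, `GaloisField.card`; `CharP K p`), and `Cfsg.Agent.S2544.result` is the Steinberg character of `PSL_n(K)`; transport `StP` along the isomorphism. -/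

namespace Cfsg.Agent.Lib.H49SmM1

open Matrix Cfsg.Agent.Lib.H49SmDefs
open Cfsg.Agent.Lib.H49SuDefs (sgm Inv)

variable {n : ℕ} {F : Type*} [Field F] {a b : F}

theorem stP_congr_M1 {X Y : Type*} [Group X] [Group Y] (ē : X ≃* Y) (p : ℕ) [Fact p.Prime]
    (h : Cfsg.Agent.Lib.H49SpXDefs.StP p Y) : Cfsg.Agent.Lib.H49SpXDefs.StP p X := by
  obtain ⟨ψ, hirr, hψ⟩ := h
  refine ⟨ψ ∘ ē, Cfsg.Agent.Lib.Helper83Char.irr_comp_mulEquiv ē hirr, ?_⟩
  intro Q
  let Q' : Sylow p Y :=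
    Q.comapOfInjective ē.symm.toMonoidHom ē.symm.injective (by
      intro x _
      exact ⟨ē x, by simp⟩)
  have hQ' : ∀ x', x' ∈ Q' ↔ ē.symm x' ∈ Q := fun x' => Iff.rfl
  have hc : Nat.card Q' = Nat.card Q := by
    show Nat.card (Subgroup.comap ē.symm.toMonoidHom (Q : Subgroup _)) = _
    refine Nat.card_congr ⟨fun x => ⟨ē.symm x.1, x.2⟩, fun y => ⟨ē y.1, ?_⟩, ?_, ?_⟩
    · show ē.symm (ē y.1) ∈ Q
      rw [ē.symm_apply_apply]
      exact y.2
    · intro x
      apply Subtype.ext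
      exact ē.apply_symm_apply x.1
    · intro y
      apply Subtype.ext
      exact ē.symm_apply_apply y.1
  obtain ⟨h1, h2⟩ := hψ Q'
  refine ⟨?_, ?_⟩
  · show ψ (ē 1) = _
    rw [map_one, h1, hc]
  · intro x hx hx1
    show ψ (ē x) = 0
    apply h2
    · rw [hQ', ē.symm_apply_apply]
      exact hx
    · intro h
      apply hx1
      apply ē.injective
      rw [h, map_one]

theorem st_one [Fintype F] (p : ℕ) [Fact p.Prime] [CharP F p] (a b : F) (hab : ∀ z₁ z₂ : F, z₁ ^ 2 + a * z₁ * z₂ + b * z₂ ^ 2 = 0 → z₁ = 0 ∧ z₂ = 0) :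
    Cfsg.Agent.Lib.H49SpXDefs.StP p (Cfsg.POmega F (Cfsg.quadFormMinus 1 F a b)) := by
  obtain ⟨k, _, hk⟩ := FiniteField.card F p
  haveI : Fintype (GaloisField p (2 * (k : ℕ))) := Fintype.ofFinite _
  have hK : Fintype.card (GaloisField p (2 * (k : ℕ))) = Fintype.card F ^ 2 := by
    rw [← Nat.card_eq_fintype_card, GaloisField.card p _ (by have := k.pos; omega), hk, ← pow_mul,
      mul_comm]
  obtain ⟨e⟩ := Cfsg.Agent.S0300.result (F := F) (K := GaloisField p (2 * (k : ℕ))) rfl hK a b hab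
  exact stP_congr_M1 e p (Cfsg.Agent.S2544.result (F := GaloisField p (2 * (k : ℕ))) p 2 le_rfl)

end Cfsg.Agent.Lib.H49SmM1
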