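import Mathlib
import Cfsg.Agent.Lib.H49SmDefs
import Cfsg.Agent.Lib.H49SpDefs
import Cfsg.Agent.Lib.H49SpXDefs
import Cfsg.Agent.Lib.H49SpHub
import Cfsg.Agent.Lib.H49SkHub
import Cfsg.Agent.Lib.H49SuTransport
import Cfsg.Agent.Lib.H49SoIsoC
import Cfsg.Agent.Lib.H49SmGrp
import Cfsg.Agent.Lib.H49SmPerm
import Cfsg.Agent.Lib.H49SmForm
import Cfsg.Agent.Lib.H49SmBNT
import Cfsg.Agent.Lib.H49SmDich
import Cfsg.Agent.Lib.H49SmA2
import Cfsg.Agent.Lib.H49SmClearGL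
import Cfsg.Agent.Lib.H49SmClearL
import Cfsg.Agent.Lib.H49SmRankGL
import Cfsg.Agent.Lib.H49SmRankL
import Cfsg.Agent.Lib.H49SmNe
import Cfsg.Agent.Lib.H49SmW
import Cfsg.Agent.Lib.H49SmW0
import Cfsg.Agent.Lib.H49SmDec
import Cfsg.Agent.Lib.H49SmNor
import Cfsg.Agent.Lib.H49SmPG
import Cfsg.Agent.Lib.H49SmTK
import Cfsg.Agent.Lib.H49SmKG
import Cfsg.Agent.Lib.H49SmEInd
import Cfsg.Agent.Lib.H49SmEK
import Cfsg.Agent.Lib.H49SmIso
import Cfsg.Agent.Lib.H49SmM0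
import Cfsg.Agent.Lib.H49SmM1

set_option autoImplicit false

/-! Project 2549: the BN-pair of `O⁻_n(F)` and the Steinberg character of `PΩ⁻_{2m+2}(q)`. -/

namespace Cfsg.Agent.Lib.H49SmHub

open Matrix Cfsg.Agent.Lib.H49SmDefs Cfsg.Agent.Lib.H49SkDefs Cfsg.Agent.Lib.H49SpDefs Cfsg.Agent.Lib.H49SpXDefs
open Cfsg.Agent.Lib.H49SmGrp

/-- variant of `H49SkHub.steinberg_of_normal`: only `p ∤ |T ∩ K|` is needed -/
theorem steinberg_of_normal' {G : Type*} [Group G] [Finite G] {P : Cfsg.BNPair G} {U T : Subgroup G} {m0 : G}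
    (h : Split P U T m0) (K : Subgroup G) (hn : K.Normal) (hUK : U ≤ K) (hS : ∀ s ∈ P.S, ∃ t ∈ T, s * t ∈ K)
    (p : ℕ) [Fact p.Prime] (hU : IsPGroup p U) (hTp : ¬ p ∣ Nat.card (T.subgroupOf K)) :
    ∃ ψ : K ⧸ Subgroup.center K → ℂ, Cfsg.IsIrrCharacter (K ⧸ Subgroup.center K) ψ ∧
      ∀ Q : Sylow p (K ⧸ Subgroup.center K), ψ 1 = Nat.card Q ∧
        ∀ x : K ⧸ Subgroup.center K, x ∈ Q → x ≠ 1 → ψ x = 0 := by
  classical
  let τ : G → G := fun s => if hs : s ∈ P.S then (hS s hs).choose else 1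
  have hτ : ∀ s (hs : s ∈ P.S), τ s = (hS s hs).choose := fun s hs => dif_pos hs
  have hK : Sub P U T K τ :=
    ⟨hn, hUK, fun s hs => by rw [hτ s hs]; exact (hS s hs).choose_spec.1,
      fun s hs => by rw [hτ s hs]; exact (hS s hs).choose_spec.2⟩
  obtain ⟨m0', h'⟩ := H49SkSpl.split h hK (H49SkHub.bnK h hK) rfl rfl
  exact H49SgGen.steinberg_of_bn (H49SkHub.bnK h hK) (U.subgroupOf K) (T.subgroupOf K) m0' h'.hm0 h'.hTN h'.hTB h'.hT
    h'.hUB h'.hnorm h'.hdec h'.hUT p (hU.comap_of_injective K.subtype K.subtype_injective) hTp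

variable {n : ℕ} {F : Type*} [Field F] {a b : F}

theorem clear [Finite F] (h2 : n % 2 = 0) (hab : Ani a b) {k : ℕ} (hk : 2 * k + 4 ≤ n) {g : GM n F a b} (hg : g ∈ BB n F a b) :
    ∃ c ∈ BB n F a b, ∃ x ∈ XX n F a b k, (∀ x' y', InvB n k x' y' → mt c x' y' = 0) ∧ g = c * x := by
  rcases Nat.lt_or_ge (2 * k + 5) n with h | h
  · exact H49SmClearGL.clear h2 hab h hg
  · exact H49SmClearL.clear h2 hab (by omega) hg

theorem rank_one [Finite F] (h2 : n % 2 = 0) (hab : Ani a b) {k : ℕ} (hk : 2 * k + 4 ≤ n) {x : GM n F a b}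
    (hx : x ∈ XX n F a b k) (h1 : x ≠ 1) : ∃ g ∈ BB n F a b, ∃ y ∈ YY n F a b k, pm n F a b (sgB n k) * x = g * y := by
  rcases Nat.lt_or_ge (2 * k + 5) n with h | h
  · exact H49SmRankGL.rank_one h2 hab h hx h1
  · exact H49SmRankL.rank_one h2 hab (by omega) hx h1

/-- **The BN-axioms.** -/
noncomputable def pre [Finite F] (h2 : n % 2 = 0) (hn : 2 ≤ n) (hab : Ani a b) : PreBN (GM n F a b) where
  B := BB n F a b
  N := NN n F a b
  S := SB n F a b
  conj_mem := by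
    intro g hg t ht
    rw [H49SmBNT.BB_inf_NN h2 hn hab] at ht
    exact TT_le_BB (H49SmForm.NN_conj_TT h2 hn hab hg ht)
  subset := fun s hs => (le_sup_left : Subgroup.closure (SB n F a b) ≤ NN n F a b) (Subgroup.subset_closure hs)
  sq_mem := by
    rintro s ⟨k, hk, rfl⟩
    rw [← H49SmPerm.pm_mul h2 (H49SmPerm.Adm_sgB h2 k) (H49SmPerm.Adm_sgB h2 k), H49SmPerm.sgB_mul_self,
      H49SmPerm.pm_one]
    exact Subgroup.one_mem _
  inj := H49SmBNT.inj h2 hn hab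
  closure_sup := by
    rw [H49SmBNT.BB_inf_NN h2 hn hab]; rfl
  mul_mem_union := by
    rintro s ⟨k, hk, rfl⟩ g hg β hβ
    refine H49SgG1.mul_mem_union (BB n F a b) (pm n F a b (sgB n k)) g (XX n F a b k) (YY n F a b k) ?_ ?_ ?_ β hβ
    · intro c0 hb
      obtain ⟨c, hc, x, hx, h0, e⟩ := clear h2 hab hk hb
      exact ⟨c, hc, x, hx, H49SmA2.conj_mem_BB h2 hn hab hc h0, e⟩
    · exact H49SmDich.dich h2 hn hab hg k hk
    · intro x hx
      by_cases h1 : x = 1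
      · exact Or.inl h1
      · exact Or.inr (rank_one h2 hab hk hx h1)
  conj_ne := by
    rintro s ⟨k, hk, rfl⟩ he
    obtain ⟨x, hx, h1⟩ := H49SmNe.exists_ne_one (F := F) (a := a) (b := b) h2 hab k hk
    have : pm n F a b (sgB n k) * x * pm n F a b (sgB n k) ∈ ((BB n F a b : Subgroup (GM n F a b)) : Set (GM n F a b)) := by
      rw [← he]
      exact ⟨_, UU_le_BB (H49SmNe.XX_le h2 hn hab hx), rfl⟩
    exact H49SmNe.conj_not_mem h2 hab hk hx h1 this

theorem steinberg_model [Fintype F] (p : ℕ) [Fact p.Prime] [CharP F p] (h2 : n % 2 = 0) (hn : 6 ≤ n) (hab : Ani a b) :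
    ∃ ψ : Cfsg.POmega F (QM n F a b) → ℂ, Cfsg.IsIrrCharacter (Cfsg.POmega F (QM n F a b)) ψ ∧
      ∀ Q : Sylow p (Cfsg.POmega F (QM n F a b)), ψ 1 = Nat.card Q ∧
        ∀ x : Cfsg.POmega F (QM n F a b), x ∈ Q → x ≠ 1 → ψ x = 0 := by
  have hn2 : 2 ≤ n := by omega
  have : Finite (GM n F a b) := inferInstance
  have hnorm : (commutator (GM n F a b)).Normal := inferInstance
  set G1 : Subgroup (GM n F a b) := (pre (F := F) (a := a) (b := b) h2 hn2 hab).H with hG1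
  have hBG : BB n F a b ≤ G1 := le_sup_left
  have hNG : NN n F a b ≤ G1 := le_sup_right
  have hTN : TT n F a b ≤ NN n F a b := le_sup_right
  have hm0 : pm n F a b (H49SmW.w0 n) ∈ NN n F a b :=
    (le_sup_left : Subgroup.closure (SB n F a b) ≤ NN n F a b) (H49SmW.pm_mem h2 (H49SmW.Adm_w0 h2))
  have hUK : UU n F a b ≤ commutator (GM n F a b) :=
    H49SmEInd.UU_le h2 hn2 hab _ (fun j w hj hw => H49SmEK.EE_mem h2 hn hab j hj w hw)
  have hsp : Split (H49SpHub.toBN (pre (F := F) (a := a) (b := b) h2 hn2 hab)) ((UU n F a b).subgroupOf G1)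
      ((TT n F a b).subgroupOf G1) ⟨pm n F a b (H49SmW.w0 n), hNG hm0⟩ :=
    ⟨hm0, fun x hx => hTN hx, fun x hx => TT_le_BB hx, fun β hβ => H49SmW0.mem_TT_iff h2 hn2 hab (β := β.1) hβ,
      fun x hx => UU_le_BB hx,
      fun g hg u hu => H49SmNor.BB_conj_UU h2 hn2 hab hg hu,
      fun g hg => by
        obtain ⟨u, hu, t, ht, e⟩ := H49SmDec.BB_decomp h2 hn2 hab (g := g.1) hg
        exact ⟨⟨u, hBG (UU_le_BB hu)⟩, hu, ⟨t, hBG (TT_le_BB ht)⟩, ht, Subtype.ext e⟩,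
      fun g hU hT => Subtype.ext (H49SmNor.UU_inf_TT hU hT)⟩
  have hKG : commutator (GM n F a b) ≤ G1 := H49SmKG.comm_le h2 hn hab
  have key := steinberg_of_normal' hsp ((commutator (GM n F a b)).subgroupOf G1) inferInstance
    (fun x hx => hUK hx) ?_ p ((H49SmPG.isPGroup_UU p).comap_of_injective G1.subtype G1.subtype_injective) ?_
  · exact H49SuTransport.transport (Subgroup.subgroupOfEquivOfLe hKG).symm p key
  · rintro ⟨s, hsG⟩ ⟨k, hk, hs⟩
    have hs' : s = pm n F a b (sgB n k) := hs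
    obtain ⟨x, hx, h1⟩ := H49SmNe.exists_ne_one (F := F) (a := a) (b := b) h2 hab k hk
    obtain ⟨g, hg, y, hy, e⟩ := rank_one h2 hab hk hx h1
    obtain ⟨u, hu, t, ht, rfl⟩ := H49SmDec.BB_decomp h2 hn2 hab hg
    have hyK : y ∈ commutator (GM n F a b) := by
      have h3 := hUK (H49SmW0.conj_low h2 hn2 hab hy)
      have h4 := hnorm.conj_mem _ h3 (pm n F a b (H49SmW.w0 n))⁻¹
      have e2 : (pm n F a b (H49SmW.w0 n))⁻¹ * (pm n F a b (H49SmW.w0 n) * y * (pm n F a b (H49SmW.w0 n))⁻¹) *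
          (pm n F a b (H49SmW.w0 n))⁻¹⁻¹ = y := by group
      rwa [e2] at h4
    have hxK : x ∈ commutator (GM n F a b) := hUK (H49SmNe.XX_le h2 hn2 hab hx)
    refine ⟨⟨t⁻¹, hBG (TT_le_BB ((TT n F a b).inv_mem ht))⟩, (TT n F a b).inv_mem ht, ?_⟩
    show s * t⁻¹ ∈ commutator (GM n F a b)
    have e3 : s * t⁻¹ = u * (t * (y * x⁻¹) * t⁻¹) := by
      have : s = u * t * y * x⁻¹ := by rw [hs', ← e]; group
      rw [this]; group
    rw [e3]
    exact (commutator (GM n F a b)).mul_mem (hUK hu)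
      (hnorm.conj_mem _ ((commutator (GM n F a b)).mul_mem hyK ((commutator (GM n F a b)).inv_mem hxK)) t)
  · intro hd
    apply H49SmTK.not_dvd (n := n) (F := F) (a := a) (b := b) p h2 hn hab
    have h1 : Nat.card (((TT n F a b).subgroupOf G1).subgroupOf ((commutator (GM n F a b)).subgroupOf G1)) ∣
        Nat.card ↥(TT n F a b ⊓ commutator (GM n F a b)) := by
      let f : (((TT n F a b).subgroupOf G1).subgroupOf ((commutator (GM n F a b)).subgroupOf G1)) →*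
          ↥(TT n F a b ⊓ commutator (GM n F a b)) :=
        { toFun := fun k => ⟨k.1.1.1, ⟨k.2, k.1.2⟩⟩, map_one' := rfl, map_mul' := fun _ _ => rfl }
      exact Subgroup.card_dvd_of_injective f
        (fun x y hxy => Subtype.ext (Subtype.ext (Subtype.ext
          (congrArg (fun z : ↥(TT n F a b ⊓ commutator (GM n F a b)) => z.1) hxy))))
    exact hd.trans h1

/-- **The Steinberg character of `PΩ⁻_{2m+2}(q)`.** -/
theorem steinberg_POmega_minus [Fintype F] (p : ℕ) [Fact p.Prime] [CharP F p] (m : ℕ) (a b : F)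
    (hab : ∀ z₁ z₂ : F, z₁ ^ 2 + a * z₁ * z₂ + b * z₂ ^ 2 = 0 → z₁ = 0 ∧ z₂ = 0) :
    ∃ χ : Cfsg.POmega F (Cfsg.quadFormMinus m F a b) → ℂ, Cfsg.IsIrrCharacter (Cfsg.POmega F (Cfsg.quadFormMinus m F a b)) χ ∧
      ∀ P : Sylow p (Cfsg.POmega F (Cfsg.quadFormMinus m F a b)), χ 1 = Nat.card P ∧
        ∀ x : Cfsg.POmega F (Cfsg.quadFormMinus m F a b), x ∈ P → x ≠ 1 → χ x = 0 := by
  rcases Nat.lt_or_ge m 2 with hm | hm
  · interval_cases m
    · exact H49SmM0.st_zero p a b hab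
    · exact H49SmM1.st_one p a b hab
  · obtain ⟨e⟩ := H49SmIso.iso (F := F) m a b
    obtain ⟨e'⟩ := H49SoIsoC.commEquiv e
    exact H49SuTransport.transport e' p (steinberg_model p (by omega) (by omega) hab)

end Cfsg.Agent.Lib.H49SmHub
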