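import Mathlib
import Cfsg.Prelude.Def_Blocks
import Cfsg.Prelude.Def_BlockRank
import Cfsg.Agent.Lib.Helper4ModRed
import Cfsg.Agent.Lib.Helper81Rank
import Cfsg.Agent.Lib.Helper81Part
import Cfsg.Agent.Lib.Helper81Orth
import Cfsg.Agent.Lib.Helper40ModRed

set_option autoImplicit false

/-! PROJECT 7 = DEFECT ONE, piece `RL`: independent `k`-valued class functions in the block give a lower bound
for the rank of the block. -/

namespace Cfsg.Agent.Lib.Helper40ModRL
open Cfsg Cfsg.Agent.Lib.Helper81Local Cfsg.Agent.Lib.Helper4ModRed Cfsg.Agent.Lib.Helper81Subsec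
  Cfsg.Agent.Lib.Helper40ModRed Cfsg.Agent.Lib.Helper81Rank

variable {M : Ideal AlgInt} [M.IsPrime] {p : ℕ}

/-- a dual family of an independent family of functions -/
theorem exists_dual {k X ι : Type*} [Field k] [Fintype X] [Fintype ι] [DecidableEq ι] (v : ι → X → k)
    (hv : LinearIndependent k v) :
    ∃ β : ι → X → k, ∀ i j, ∑ x, v i x * β j x = if i = j then 1 else 0 := by
  classical
  have hinj : Function.Injective (Fintype.linearCombination k v) :=
    linearIndependent_iff_injective_fintypeLinearCombination.1 hv
  obtain ⟨g, hg⟩ := LinearMap.exists_leftInverse_of_injective _ (LinearMap.ker_eq_bot.2 hinj)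
  refine ⟨fun j x => g (Pi.single x 1) j, fun i j => ?_⟩
  have h1 : g (v i) = Pi.single i 1 := by
    have h2 := LinearMap.congr_fun hg (Pi.single i 1)
    rw [LinearMap.comp_apply, LinearMap.id_apply] at h2
    rw [← h2]
    congr 1
    simp [Fintype.linearCombination_apply]
  have h3 : v i = ∑ x, v i x • (Pi.single x 1 : X → k) := pi_eq_sum_univ' (v i)
  have h4 : g (v i) j = ∑ x, v i x * g (Pi.single x 1) j := by
    conv_lhs => rw [h3]
    rw [map_sum, Finset.sum_apply]
    apply Finset.sum_congr rfl
    intro x _
    rw [map_smul, Pi.smul_apply, smul_eq_mul]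
  rw [← h4, h1, Pi.single_apply]
  simp [eq_comm]

/-- a fixed lift of the residue field -/
noncomputable def lift (M : Ideal AlgInt) [M.IsPrime] (c : kk M) : ℂ := Classical.choose (exists_lift c)

theorem red_lift (c : kk M) : Red M (lift M c) c := Classical.choose_spec (exists_lift c)

theorem rank_link {G : Type*} [Group G] [Fintype G] [Fact p.Prime] (hM : IsPModular p M)
    {B : Set (IrrCharacter G)} (hB : IsBlockUnion M B) (ε : G → kk M)
    (hε : ∀ g, Red M (blockCoeff B g) (ε g)) {ι : Type*} [Fintype ι] (τ : ι → G → kk M)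
    (hli : LinearIndependent (kk M) τ) (hcl : ∀ i g h, τ i (h * g * h⁻¹) = τ i g)
    (hsec : ∀ i s u, Commute s u → (∃ n : ℕ, u ^ p ^ n = 1) → τ i (s * u) = τ i s)
    (hblk : ∀ i g, ∑ u, ε u * τ i (u * g) = τ i g) :
    Fintype.card ι ≤ blockRank p B := by
  classical
  -- restriction to the regular elements
  set v : ι → G → kk M := fun i y => if ¬ p ∣ orderOf y then τ i y else 0 with hv
  have hvli : LinearIndependent (kk M) v := by
    rw [Fintype.linearIndependent_iff] at hli ⊢
    intro c hc
    apply hli c
    funext g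
    obtain ⟨x, y, hxy, hcomm, ⟨n, hn⟩, hy⟩ := Cfsg.Agent.Lib.Helper81Orth.exists_ppart (Fact.out : p.Prime) g
    have h1 := congrFun hc y
    simp only [Finset.sum_apply, Pi.smul_apply, smul_eq_mul, Pi.zero_apply] at h1 ⊢
    rw [← h1]
    apply Finset.sum_congr rfl
    intro i _
    rw [hv]
    simp only [hy, not_false_eq_true, if_true]
    rw [← hxy, hcomm.eq, hsec i y x hcomm.symm ⟨n, by rw [← hn, pow_orderOf_eq_one]⟩]
  obtain ⟨β, hβ⟩ := exists_dual v hvli
  -- lifts
  set η : ι → G → ℂ := fun i g => lift M (τ i g) with hη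
  have hηcl : ∀ i, IsClassFunction G (η i) := by
    intro i g h
    simp only [hη, hcl]
  set Fn : ι → G → ℂ := fun i => projOp p B (η i) with hFn
  have hred : ∀ i y, Red M (Fn i y) (v i y) := by
    intro i y
    by_cases hy : p ∣ orderOf y
    · have h1 : Fn i y = 0 := by
        simp only [hFn]
        rw [projOp_apply, Finset.sum_apply]
        apply Finset.sum_eq_zero
        intro ψ _
        split_ifs
        · rw [Pi.smul_apply, pRegularPart_apply]
          simp [hy]
        · rfl
      have h2 : v i y = 0 := by simp [hv, hy]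
      rw [h1, h2]
      exact red_zero
    · have h1 : Fn i y = blockPart B (η i) y := by
        simp only [hFn]
        rw [projOp_apply, Finset.sum_apply, Cfsg.Agent.Lib.Helper81Part.blockPart_def]
        apply Finset.sum_congr rfl
        intro ψ _
        split_ifs
        · rw [Pi.smul_apply, pRegularPart_apply]
          simp only [hy, not_false_eq_true, if_true, smul_eq_mul]
          rfl
        · rfl
      have h2 : v i y = τ i y := by simp [hv, hy]
      rw [h1, h2, Cfsg.Agent.Lib.Helper81Part.blockPart_eq_sum B (hηcl i), ← hblk i y]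
      apply Red.sum
      intro u _
      exact Red.mul (hε u) (red_lift _)
  -- the pairing matrix
  set A : Matrix ι ι ℂ := fun i j => ∑ y, Fn i y * lift M (β j y) with hA
  have hAred : ∀ i j, Red M (A i j) ((1 : Matrix ι ι (kk M)) i j) := by
    intro i j
    rw [Matrix.one_apply, ← hβ i j]
    apply Red.sum
    intro y _
    exact Red.mul (hred i y) (red_lift _)
  have hdet : A.det ≠ 0 := by
    intro h0
    have h1 := Red.det hAred
    rw [h0, Matrix.det_one] at h1
    exact one_ne_zero (Red.unique h1 red_zero)
  have hFli : LinearIndependent ℂ Fn := by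
    rw [Fintype.linearIndependent_iff]
    intro c hc
    have h1 : Matrix.vecMul c A = 0 := by
      funext j
      simp only [Matrix.vecMul, dotProduct, hA, Pi.zero_apply]
      have h2 : ∑ i, c i * ∑ y, Fn i y * lift M (β j y) = ∑ y, (∑ i, c i • Fn i) y * lift M (β j y) := by
        simp only [Finset.sum_apply, Pi.smul_apply, smul_eq_mul, Finset.mul_sum, Finset.sum_mul]
        rw [Finset.sum_comm]
        apply Finset.sum_congr rfl
        intro y _
        apply Finset.sum_congr rfl
        intro i _
        ring
      rw [h2, hc]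
      simp
    have h3 := Matrix.eq_zero_of_vecMul_eq_zero hdet h1
    intro i
    exact congrFun h3 i
  have hle : Submodule.span ℂ (Set.range Fn) ≤
      Submodule.span ℂ ((fun χ : IrrCharacter G => pRegularPart p (χ : G → ℂ)) '' B) := by
    rw [Submodule.span_le]
    rintro _ ⟨i, rfl⟩
    exact (projOp_isProj hM hB).map_mem (η i)
  have h5 := Submodule.finrank_mono hle
  rw [finrank_span_eq_card hFli] at h5
  exact h5

end Cfsg.Agent.Lib.Helper40ModRL
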