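import Mathlib
import Cfsg.Agent.Lib.Helper83Klein
import Cfsg.Agent.Lib.Helper81D1Top

set_option autoImplicit false

namespace Cfsg.Agent.Lib.H4BrChar1

open Cfsg Cfsg.Agent.Lib.Helper81Orth2 Cfsg.Agent.Lib.Helper81Subsec

variable {G : Type*} [Group G] [Fintype G] {M : Ideal AlgInt} {p : ℕ}

/-- piece `Char1`: `l(B) < k(B)` for a block of positive defect. -/
theorem rank_lt_card [Fact p.Prime] (hM : IsPModular p M) {B : Set (IrrCharacter G)}
    (hB : IsPBlock M B) (hd : 1 ≤ blockDefect p B) : blockRank p B < Nat.card B := by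
  classical
  have hp : p.Prime := Fact.out
  have hMp := hM.2.1.isPrime
  obtain ⟨H, ⟨x, hxH⟩, b, hH, hz, hind, -⟩ := Helper81D1Top.exists_major hM hB hd
  simp only at hH hz
  subst hH
  have hxk : ∃ k : ℕ, orderOf x = p ^ k := ⟨1, by rw [hz, pow_one]⟩
  have h1 := Helper81Count.section_contribution hM hB x hxk
  have h2 := Helper78Klein2.card_eq_rank_add hM hB
  have h3 := Helper83Klein.rank_le_overSet hM hind
  let _ : Fintype (Subgroup.centralizer ({x} : Set G)) := Fintype.ofFinite _
  obtain ⟨ψ, hψ⟩ := Helper81Block.isPBlock_nonempty hind.1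
  have h4 := Helper83Klein.blockRank_pos hp hψ
  let d : G → ℝ := fun g => ∑ χ : IrrCharacter G, if χ ∈ B then ‖(χ : G → ℂ) g‖ ^ 2 else 0
  have hd' : ∀ g, delta B g g = (d g : ℂ) := by
    intro g
    unfold delta
    simp only [d]
    push_cast
    apply Finset.sum_congr rfl
    intro χ _
    split_ifs
    · rw [Complex.mul_conj, Complex.normSq_eq_norm_sq]
    · rfl
  have hd0 : ∀ g, 0 ≤ d g := by
    intro g
    apply Finset.sum_nonneg
    intro χ _
    split_ifs
    · positivity
    · exact le_refl _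
  have himp : ∀ g, (∃ t : G, IsPPart p (t * g * t⁻¹) x) → p ∣ orderOf g := by
    rintro g ⟨t, y, hxy, hc, -, hy⟩
    have e1 : orderOf (t * g * t⁻¹) = orderOf g := (MulAut.conj t).orderOf_eq g
    rw [← e1, ← hxy, hc.orderOf_mul_eq_mul_orderOf_of_coprime (by
      rw [hz]; exact (Nat.Prime.coprime_iff_not_dvd hp).2 hy), hz]
    exact dvd_mul_right _ _
  simp only [hd'] at h1 h2
  have h1' : ((Nat.card G : ℝ)⁻¹ * ∑ g : G, (if ∃ t : G, IsPPart p (t * g * t⁻¹) x then d g else 0))
      = (blockRank p (overSet M x B) : ℝ) := by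
    apply Complex.ofReal_injective
    rw [← Complex.ofReal_natCast] at h1
    push_cast
    push_cast at h1
    rw [← h1]
    congr 1
    apply Finset.sum_congr rfl
    intro g _
    split_ifs <;> rfl
  have h2' : (Nat.card B : ℝ) = (blockRank p B : ℝ)
      + (Nat.card G : ℝ)⁻¹ * ∑ g : G, (if p ∣ orderOf g then d g else 0) := by
    apply Complex.ofReal_injective
    push_cast
    rw [h2]
    congr 2
    apply Finset.sum_congr rfl
    intro g _
    split_ifs <;> simp
  have h5 : ∑ g : G, (if ∃ t : G, IsPPart p (t * g * t⁻¹) x then d g else 0)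
      ≤ ∑ g : G, (if p ∣ orderOf g then d g else 0) := by
    apply Finset.sum_le_sum
    intro g _
    by_cases hg : ∃ t : G, IsPPart p (t * g * t⁻¹) x
    · rw [if_pos hg, if_pos (himp g hg)]
    · rw [if_neg hg]
      split_ifs
      · exact hd0 g
      · exact le_refl _
  have h6 : (0 : ℝ) ≤ (Nat.card G : ℝ)⁻¹ := by positivity
  have h7 := mul_le_mul_of_nonneg_left h5 h6
  rw [h1'] at h7
  have h8 : (1 : ℝ) ≤ (blockRank p (overSet M x B) : ℝ) := by
    have : 1 ≤ blockRank p (overSet M x B) := by omega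
    exact_mod_cast this
  have h9 : (blockRank p B : ℝ) + 1 ≤ (Nat.card B : ℝ) := by
    rw [h2']
    linarith
  have h10 : blockRank p B + 1 ≤ Nat.card B := by exact_mod_cast h9
  omega

end Cfsg.Agent.Lib.H4BrChar1
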