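import Mathlib
import Cfsg.Agent.Lib.Helper83Klein
import Cfsg.Agent.Lib.Helper81Reg

set_option autoImplicit false

namespace Cfsg.Agent.Lib.H4BrChar2

open Cfsg
open scoped ComplexConjugate
open Cfsg.Agent.Lib.Helper81Local Cfsg.Agent.Lib.Helper81Base Cfsg.Agent.Lib.Helper81Block
  Cfsg.Agent.Lib.Helper81Defect Cfsg.Agent.Lib.Helper81Rank Cfsg.Agent.Lib.Helper81Reg
  Cfsg.Agent.Lib.Helper81Subsec

variable {G : Type*} [Group G] [Fintype G] {M : Ideal AlgInt} {p : ℕ}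

/-- piece `Char2`: the two characters of a block with `k(B) = 2`, `l(B) = 1`. -/
theorem two_chars [Fact p.Prime] (hM : IsPModular p M) {B : Set (IrrCharacter G)}
    (hB : IsPBlock M B) (hc : Nat.card B = 2) (hr : blockRank p B = 1) :
    ∃ χ₁ χ₂ : IrrCharacter G, χ₁ ≠ χ₂ ∧ B = {χ₁, χ₂} ∧
      (∀ g, ¬ p ∣ orderOf g →
        (χ₁ : G → ℂ) 1 * (χ₂ : G → ℂ) g = (χ₂ : G → ℂ) 1 * (χ₁ : G → ℂ) g) ∧
      MemLocalRing M ((((χ₁ : G → ℂ) 1) ^ 2 + ((χ₂ : G → ℂ) 1) ^ 2) /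
        ((p : ℂ) ^ (blockDefect p B) * ((χ₁ : G → ℂ) 1) ^ 2)) := by
  classical
  have hMp := hM.2.1.isPrime
  have hpp : p.Prime := Fact.out
  obtain ⟨χ₁, hχ₁, hmin⟩ := exists_minVal (p := p) (isPBlock_nonempty hB)
  have hh0 : blockHeight p B (χ₁ : G → ℂ) = 0 := by rw [blockHeight_def, hmin, Nat.sub_self]
  -- the other character
  obtain ⟨χ₂, hne, hBeq⟩ : ∃ χ₂ : IrrCharacter G, χ₁ ≠ χ₂ ∧ B = {χ₁, χ₂} := by
    rw [Nat.card_coe_set_eq, Set.ncard_eq_two] at hc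
    obtain ⟨x, y, hxy, hB'⟩ := hc
    rw [hB'] at hχ₁
    rcases hχ₁ with h | h
    · exact ⟨y, by rw [h]; exact hxy, by rw [hB', h]⟩
    · rw [Set.mem_singleton_iff] at h
      exact ⟨x, by rw [h]; exact hxy.symm, by rw [hB', h, Set.pair_comm]⟩
  have hχ₂ : χ₂ ∈ B := by rw [hBeq]; simp
  have hf1 : (χ₁ : G → ℂ) 1 ≠ 0 := irr_one_ne_zero χ₁
  -- proportionality
  have hreg1 : ¬ p ∣ orderOf (1 : G) := by
    rw [orderOf_one]; exact hpp.one_lt.ne' ∘ Nat.dvd_one.1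
  obtain ⟨c, hcc⟩ : ∃ c : ℂ, c • pRegularPart p (χ₁ : G → ℂ) = pRegularPart p (χ₂ : G → ℂ) := by
    unfold blockRank at hr
    have hm1 : pRegularPart p (χ₁ : G → ℂ) ∈ Submodule.span ℂ
        ((fun χ : IrrCharacter G => pRegularPart p (χ : G → ℂ)) '' B) :=
      Submodule.subset_span ⟨χ₁, hχ₁, rfl⟩
    have hm2 : pRegularPart p (χ₂ : G → ℂ) ∈ Submodule.span ℂ
        ((fun χ : IrrCharacter G => pRegularPart p (χ : G → ℂ)) '' B) :=
      Submodule.subset_span ⟨χ₂, hχ₂, rfl⟩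
    have hnz : (⟨_, hm1⟩ : ↥(Submodule.span ℂ
        ((fun χ : IrrCharacter G => pRegularPart p (χ : G → ℂ)) '' B))) ≠ 0 := by
      intro h
      have h' := congrFun (congrArg Subtype.val h) 1
      simp only [pRegularPart_apply, hreg1, not_false_eq_true, if_true] at h'
      exact hf1 h'
    obtain ⟨c, hc'⟩ := (finrank_eq_one_iff_of_nonzero' _ hnz).1 hr ⟨_, hm2⟩
    exact ⟨c, congrArg Subtype.val hc'⟩
  have hcg : ∀ g, ¬ p ∣ orderOf g → c * (χ₁ : G → ℂ) g = (χ₂ : G → ℂ) g := by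
    intro g hg
    have := congrFun hcc g
    simpa only [Pi.smul_apply, pRegularPart_apply, hg, not_false_eq_true, if_true,
      smul_eq_mul] using this
  have hc1 : c * (χ₁ : G → ℂ) 1 = (χ₂ : G → ℂ) 1 := hcg 1 hreg1
  have hceq : c = (χ₂ : G → ℂ) 1 / (χ₁ : G → ℂ) 1 := by
    rw [← hc1]; field_simp
  have hcconj : conj c = c := by
    obtain ⟨n1, -, e1⟩ := irr_one χ₁
    obtain ⟨n2, -, e2⟩ := irr_one χ₂
    rw [hceq, e1, e2, map_div₀, Complex.conj_natCast, Complex.conj_natCast]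
  refine ⟨χ₁, χ₂, hne, hBeq, ?_, ?_⟩
  · intro g hg
    rw [← hcg g hg, ← hc1]
    ring
  -- the rank formula
  have hrank := blockRank_eq hM (isBlockUnion_of_isPBlock hB)
  rw [hr] at hrank
  have hsum : ∑ ψ : IrrCharacter G, (if ψ ∈ B then regInner p (ψ : G → ℂ) (ψ : G → ℂ) else 0)
      = regInner p (χ₁ : G → ℂ) (χ₁ : G → ℂ) + regInner p (χ₂ : G → ℂ) (χ₂ : G → ℂ) := by
    rw [← Finset.sum_filter]
    have : Finset.univ.filter (fun ψ : IrrCharacter G => ψ ∈ B) = {χ₁, χ₂} := by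
      ext ψ
      simp [hBeq]
    rw [this, Finset.sum_pair hne]
  have hR2 : regInner p (χ₂ : G → ℂ) (χ₂ : G → ℂ)
      = c ^ 2 * regInner p (χ₁ : G → ℂ) (χ₁ : G → ℂ) := by
    unfold regInner
    rw [mul_left_comm (c ^ 2)]
    congr 1
    rw [Finset.mul_sum]
    apply Finset.sum_congr rfl
    intro y _
    by_cases hy : p ∣ orderOf y
    · simp [hy]
    · simp only [hy, not_false_eq_true, if_true]
      rw [← hcg y hy, map_mul, hcconj]
      ring
  rw [hsum, hR2] at hrank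
  -- `creg`
  have hcreg : creg p (χ₁ : G → ℂ) (χ₁ : G → ℂ)
      = (Nat.card G : ℂ) * regInner p (χ₁ : G → ℂ) (χ₁ : G → ℂ) / (χ₁ : G → ℂ) 1 := by
    have hG : (Nat.card G : ℂ) ≠ 0 := by
      exact_mod_cast Nat.card_pos.ne'
    unfold creg Cfsg.Agent.Lib.Helper20Center.om areg regInner
    rw [mul_inv_cancel_left₀ hG]
    congr 1
    apply Finset.sum_congr rfl
    intro y _
    by_cases hy : p ∣ orderOf y
    · simp [hy]
    · simp only [hy, not_false_eq_true, if_true]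
      ring
  have hinv := memLocalRing_inv (creg_mem (M := M) (p := p) χ₁ χ₁) (creg_self_unit hM hB hχ₁ hh0)
  have hnat : MemLocalRing M ((Nat.card G : ℂ)
      / ((p ^ blockDefect p B * charDegree (χ₁ : G → ℂ) : ℕ) : ℂ)) := by
    apply memLocalRing_natDiv hM
      (mul_ne_zero (pow_ne_zero _ hpp.ne_zero) (charDegree_pos χ₁).ne')
    rw [Nat.factorization_mul (pow_ne_zero _ hpp.ne_zero) (charDegree_pos χ₁).ne',
      Finsupp.add_apply, Nat.factorization_pow, Finsupp.smul_apply, hpp.factorization_self,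
      hmin, blockDefect_def]
    have := minVal_le_card (p := p) (isPBlock_nonempty hB)
    simp only [smul_eq_mul, mul_one]
    omega
  have hfin := memLocalRing_mul hnat hinv
  convert hfin using 1
  rw [hcreg]
  push_cast
  rw [charDegree_eq]
  have hR0 : regInner p (χ₁ : G → ℂ) (χ₁ : G → ℂ) ≠ 0 := by
    intro h0
    rw [h0] at hrank
    simp at hrank
  have hG : (Nat.card G : ℂ) ≠ 0 := by
    exact_mod_cast Nat.card_pos.ne'
  have hp0 : (p : ℂ) ^ blockDefect p B ≠ 0 := pow_ne_zero _ (by exact_mod_cast hpp.ne_zero)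
  have h1 : ((χ₁ : G → ℂ) 1) ^ 2 + ((χ₂ : G → ℂ) 1) ^ 2
      = ((χ₁ : G → ℂ) 1) ^ 2 / regInner p (χ₁ : G → ℂ) (χ₁ : G → ℂ) := by
    rw [eq_div_iff hR0, ← hc1]
    have : (1 : ℂ) = regInner p (χ₁ : G → ℂ) (χ₁ : G → ℂ)
        + c ^ 2 * regInner p (χ₁ : G → ℂ) (χ₁ : G → ℂ) := by exact_mod_cast hrank
    linear_combination (-((χ₁ : G → ℂ) 1) ^ 2) * this
  rw [h1]
  field_simp

end Cfsg.Agent.Lib.H4BrChar2
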