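import Mathlib
import Cfsg.Agent.Lib.Helper81D1Top

set_option autoImplicit false

namespace Cfsg.Agent.Lib.H4BrConv

open Cfsg

/-- piece `Conv`: a 2-block of defect one has exactly two characters. -/
theorem conv {G : Type*} [Group G] [Fintype G] {M : Ideal AlgInt} (hM : IsPModular 2 M)
    {B : Set (IrrCharacter G)} (hB : IsPBlock M B) (hd : blockDefect 2 B = 1) :
    Nat.card B = 2 := by
  have : Fact (Nat.Prime 2) := ⟨Nat.prime_two⟩
  have := hM.2.1.isPrime
  have h1 : Nat.card B ≤ 2 := by
    have := Helper81D1Top.main hM 1 G B hB hd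
    simpa [Helper81D1Top.bd] using this
  have h2 : Nat.card B ≠ 0 := by
    intro h0
    rcases Nat.card_eq_zero.1 h0 with h | h
    · obtain ⟨χ, hχ⟩ := Helper81Block.isPBlock_nonempty hB
      exact h.false ⟨χ, hχ⟩
    · exact h.false
  have h3 : Nat.card B ≠ 1 := by
    intro h0
    obtain ⟨hs, ⟨χ⟩⟩ := Nat.card_eq_one_iff_unique.1 h0
    have h4 : blockDefect 2 B = 0 := by
      rw [Helper81Defect.blockDefect_eq_zero_iff hM hB]
      refine ⟨χ.1, ?_⟩
      ext ψ
      constructor
      · intro hψ
        have := hs.elim ⟨ψ, hψ⟩ χ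
        exact congrArg Subtype.val this
      · rintro rfl
        exact χ.2
    omega
  omega

end Cfsg.Agent.Lib.H4BrConv
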