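import Mathlib
import Cfsg.Agent.Lib.Helper80IdemDefs

/-!
# Project 4607 (Brandt: `k(B) = 2 ↔ |D| = 2`), vocabulary
-/

set_option autoImplicit false

namespace Cfsg.Agent.Lib.H4BrDefs

open Cfsg.Agent.Lib.Helper80IdemDefs

/-- `x ↦ ι x ι`. -/
def cmap (O : Type*) [CommRing O] {A : Type*} [Ring A] [Algebra O A] (ι : A) : A →ₗ[O] A where
  toFun x := ι * x * ι
  map_add' x y := by rw [mul_add, add_mul]
  map_smul' r x := by rw [mul_smul_comm, smul_mul_assoc, RingHom.id_apply]

theorem cmap_apply (O : Type*) [CommRing O] {A : Type*} [Ring A] [Algebra O A] (ι x : A) :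
    cmap O ι x = ι * x * ι := rfl

/-- a symmetric form which lives in the "block" `e`. -/
def Form {O : Type*} [CommRing O] {A : Type*} [Ring A] [Algebra O A] {T : Type*} [AddCommGroup T]
    [Module O T] (e : A) (t : A →ₗ[O] T) : Prop :=
  (∀ x y, t (x * y) = t (y * x)) ∧ ∀ x, t (e * x) = t x

/-- linear dependence of finitely many functions, by hand. -/
def Dep {X k : Type*} [Field k] {n : ℕ} (t : Fin n → X → k) : Prop :=
  ∃ c : Fin n → k, c ≠ 0 ∧ ∀ x, ∑ i, c i * t i x = 0

/-- `ι` is a "full local" idempotent of the block `e`: `e ∈ A ι A`, and `ι A ι = O ι + K` with `K`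
multiplicatively closed and consisting of topologically nilpotent elements. -/
structure FullS (O : Type*) [CommRing O] [IsLocalRing O] (A : Type*) [Ring A] [Algebra O A]
    (e ι : A) (K : Submodule O A) (n : ℕ) (a b : Fin n → A) : Prop where
  idem : ι * ι = ι
  ne : ι ≠ 0
  ie : ι * e = ι
  sum : ∑ j, a j * ι * b j = e
  corner : ∀ x ∈ K, ι * x = x ∧ x * ι = x
  tn : ∀ x ∈ K, TN O A x
  mul : ∀ x ∈ K, ∀ y ∈ K, x * y ∈ K
  scal : ∀ x, ∃ r : O, ι * x * ι - r • ι ∈ K

end Cfsg.Agent.Lib.H4BrDefs
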