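import Mathlib
import Cfsg.Agent.Lib.H4BrDefs

set_option autoImplicit false

namespace Cfsg.Agent.Lib.H4BrDual

open Cfsg.Agent.Lib.H4BrDefs

/-- dual forms of a finite linearly independent family -/
theorem exists_dual_forms {k V : Type*} [Field k] [AddCommGroup V] [Module k V] {n : ℕ}
    (v : Fin n → V) (hv : LinearIndependent k v) :
    ∃ g : Fin n → (V →ₗ[k] k), ∀ i j, g i (v j) = if i = j then 1 else 0 := by
  have hinj : LinearMap.ker (Fintype.linearCombination k v) = ⊥ := by
    rw [LinearMap.ker_eq_bot]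
    exact linearIndependent_iff_injective_fintypeLinearCombination.1 hv
  obtain ⟨G, hG⟩ := LinearMap.exists_leftInverse_of_injective _ hinj
  refine ⟨fun i => (LinearMap.proj i).comp G, fun i j => ?_⟩
  have h1 : Fintype.linearCombination k v (Pi.single j 1) = v j := by
    simp [Fintype.linearCombination_apply, Pi.single_apply]
  have h2 := congrArg (fun φ => φ (Pi.single j (1 : k))) hG
  simp only [LinearMap.comp_apply, LinearMap.id_apply, h1] at h2
  simp only [LinearMap.comp_apply, LinearMap.proj_apply, h2, Pi.single_apply]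

/-- piece `Dual` (PURE MATHLIB): if any three linear forms vanishing on `U` are dependent on `C` then
`dim C ≤ dim U + 2`. -/
theorem dual {k V : Type*} [Field k] [AddCommGroup V] [Module k V] [FiniteDimensional k V]
    (U C : Submodule k V) (hUC : U ≤ C)
    (h : ∀ f : Fin 3 → (V →ₗ[k] k), (∀ i, ∀ u ∈ U, f i u = 0) →
      ∃ c : Fin 3 → k, c ≠ 0 ∧ ∀ x ∈ C, ∑ i, c i * f i x = 0) :
    Module.finrank k C ≤ Module.finrank k U + 2 := by
  by_contra hcon
  push Not at hcon
  obtain ⟨U', hU'⟩ := Submodule.exists_isCompl U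
  set D := U' ⊓ C with hD
  have hsup : U ⊔ D = C := by
    rw [hD, ← sup_inf_assoc_of_le U' hUC, hU'.sup_eq_top, top_inf_eq]
  have hinf : U ⊓ D = ⊥ := by
    rw [eq_bot_iff]
    calc U ⊓ D ≤ U ⊓ U' := inf_le_inf_left _ inf_le_left
      _ = ⊥ := hU'.inf_eq_bot
  have hdim := Submodule.finrank_sup_add_finrank_inf_eq U D
  rw [hsup, hinf, finrank_bot, add_zero] at hdim
  have h3 : 3 ≤ Module.finrank k D := by omega
  obtain ⟨d, hd⟩ := exists_linearIndependent_of_le_finrank h3
  have hv : LinearIndependent k (fun j => (d j : V)) :=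
    hd.map' D.subtype (Submodule.ker_subtype D)
  obtain ⟨g, hg⟩ := exists_dual_forms _ hv
  set π : V →ₗ[k] V := U'.subtype.comp (Submodule.projectionOnto U' U hU'.symm) with hπ
  have hπU : ∀ u ∈ U, π u = 0 := by
    intro u hu
    have := Submodule.projectionOnto_apply_right hU'.symm ⟨u, hu⟩
    simp only [hπ, LinearMap.comp_apply]
    rw [this]
    simp
  have hπD : ∀ j, π (d j : V) = d j := by
    intro j
    have hmem : (d j : V) ∈ U' := (d j).2.1
    have := Submodule.projectionOnto_apply_left hU'.symm ⟨(d j : V), hmem⟩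
    simp only [hπ, LinearMap.comp_apply]
    rw [this]
    rfl
  obtain ⟨c, hc0, hc⟩ := h (fun i => (g i).comp π) (fun i u hu => by
    simp only [LinearMap.comp_apply, hπU u hu, map_zero])
  apply hc0
  funext j
  have := hc (d j : V) (d j).2.2
  simp only [LinearMap.comp_apply, hπD, hg] at this
  simpa using this

/-- piece `Dual`, second part (PURE MATHLIB): codimension at most one. -/
theorem codim {k V : Type*} [Field k] [AddCommGroup V] [Module k V] [FiniteDimensional k V]
    (U N : Submodule k V) (hUN : U ≤ N) (h : Module.finrank k N ≤ Module.finrank k U + 1) :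
    ∃ x ∈ N, N ≤ Submodule.span k {x} ⊔ U := by
  by_cases hNU : N ≤ U
  · exact ⟨0, N.zero_mem, hNU.trans le_sup_right⟩
  · obtain ⟨x, hxN, hxU⟩ := Set.not_subset.1 hNU
    refine ⟨x, hxN, ?_⟩
    have hle : Submodule.span k {x} ⊔ U ≤ N :=
      sup_le ((Submodule.span_singleton_le_iff_mem x N).2 hxN) hUN
    have hlt : U < Submodule.span k {x} ⊔ U := by
      refine lt_of_le_of_ne le_sup_right ?_
      intro e
      apply hxU
      rw [SetLike.mem_coe, e]
      exact Submodule.mem_sup_left (Submodule.mem_span_singleton_self x)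
    have h1 := Submodule.finrank_lt_finrank_of_lt hlt
    exact (Submodule.eq_of_le_of_finrank_le hle (by omega)).ge

end Cfsg.Agent.Lib.H4BrDual
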