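import Mathlib
import Cfsg.Agent.Lib.H4BrDefs

set_option autoImplicit false

namespace Cfsg.Agent.Lib.H4BrExt

open Cfsg.Agent.Lib.H4BrDefs

theorem key {R : Type*} [Ring R] (ε ι : R) (hεc : ∀ x, ε * x = x * ε)
    (hι : ι * ι = ι) (hιε : ι * ε = ι) (n : ℕ) (a b : Fin n → R)
    (hab : ∑ j, a j * ι * b j = ε) (u v : R) :
    ι * (u * v) * ι = ∑ l, (ι * (u * a l) * ι) * (ι * (b l * v) * ι) := by
  have h1 : ∀ l, (ι * (u * a l) * ι) * (ι * (b l * v) * ι)
      = ι * u * (a l * ι * b l) * (v * ι) := by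
    intro l
    calc (ι * (u * a l) * ι) * (ι * (b l * v) * ι)
        = ι * u * a l * (ι * ι) * b l * v * ι := by simp only [mul_assoc]
      _ = ι * u * (a l * ι * b l) * (v * ι) := by rw [hι]; simp only [mul_assoc]
  simp only [h1]
  rw [← Finset.sum_mul, ← Finset.mul_sum, hab]
  calc ι * (u * v) * ι = (ι * ε) * (u * v) * ι := by rw [hιε]
    _ = ι * (ε * u) * (v * ι) := by simp only [mul_assoc]
    _ = ι * u * ε * (v * ι) := by rw [hεc u]; simp only [mul_assoc]

/-- piece `Ext` (PURE MATHLIB): a form which is symmetric on the corner `ι R ι` of a full idempotent extends to a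
symmetric form of the block. -/
theorem ext {k R : Type*} [Field k] [Ring R] [Algebra k R] (ε ι : R) (hεc : ∀ x, ε * x = x * ε)
    (hι : ι * ι = ι) (hιε : ι * ε = ι) (n : ℕ) (a b : Fin n → R)
    (hab : ∑ j, a j * ι * b j = ε) (τ : R →ₗ[k] k)
    (hτ : ∀ x y, τ ((ι * x * ι) * (ι * y * ι)) = τ ((ι * y * ι) * (ι * x * ι))) :
    ∃ σ : R →ₗ[k] k, Form ε σ ∧ ∀ x, σ (ι * x * ι) = τ (ι * x * ι) := by
  have hk := key ε ι hεc hι hιε n a b hab
  let σ : R →ₗ[k] k := ∑ j, τ ∘ₗ (LinearMap.mulLeft k (ι * b j)) ∘ₗ (LinearMap.mulRight k (a j * ι))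
  have hσ : ∀ x, σ x = ∑ j, τ (ι * (b j * x * a j) * ι) := by
    intro x
    simp only [σ, LinearMap.sum_apply, LinearMap.comp_apply, LinearMap.mulLeft_apply,
      LinearMap.mulRight_apply, mul_assoc]
  refine ⟨σ, ⟨?_, ?_⟩, ?_⟩
  · intro x y
    rw [hσ, hσ]
    have e1 : ∀ j, τ (ι * (b j * (x * y) * a j) * ι)
        = ∑ l, τ ((ι * (b j * x * a l) * ι) * (ι * (b l * (y * a j)) * ι)) := by
      intro j
      rw [← map_sum, ← hk]
      simp only [mul_assoc]
    have e2 : ∀ l, τ (ι * (b l * (y * x) * a l) * ι)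
        = ∑ j, τ ((ι * (b l * y * a j) * ι) * (ι * (b j * (x * a l)) * ι)) := by
      intro j
      rw [← map_sum, ← hk]
      simp only [mul_assoc]
    simp only [e1, e2]
    rw [Finset.sum_comm]
    refine Finset.sum_congr rfl fun l _ => Finset.sum_congr rfl fun j _ => ?_
    rw [hτ]
    simp only [mul_assoc]
  · intro x
    rw [hσ, hσ]
    refine Finset.sum_congr rfl fun j _ => ?_
    congr 1
    calc ι * (b j * (ε * x) * a j) * ι = ι * (b j * ε) * x * a j * ι := by simp only [mul_assoc]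
      _ = (ι * ε) * b j * x * a j * ι := by rw [← hεc]; simp only [mul_assoc]
      _ = ι * (b j * x * a j) * ι := by rw [hιε]; simp only [mul_assoc]
  · intro x
    rw [hσ]
    have e1 : ∀ j, τ (ι * (b j * (ι * x * ι) * a j) * ι)
        = τ ((ι * (x * ι * a j) * ι) * (ι * (b j * 1) * ι)) := by
      intro j
      rw [← hτ]
      congr 1
      calc ι * (b j * (ι * x * ι) * a j) * ι = ι * b j * ι * x * ι * a j * ι := by
            simp only [mul_assoc]
        _ = ι * b j * (ι * ι) * x * ι * a j * ι := by rw [hι]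
        _ = _ := by simp only [mul_assoc, mul_one]
    simp only [e1]
    rw [← map_sum, ← hk]
    congr 1
    calc ι * (x * ι * 1) * ι = ι * x * (ι * ι) := by simp only [mul_assoc, mul_one]
      _ = ι * x * ι := by rw [hι]

end Cfsg.Agent.Lib.H4BrExt
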