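import Cfsg.Agent.Lib.Helper81KulDefs

/-!
# Project 83 (KUL), piece A-NILP: a finite dimensional nil algebra is nilpotent
-/

set_option autoImplicit false

namespace Cfsg.Agent.Lib.Helper91KulNILP

open Cfsg.Agent.Lib.Helper81KulDefs

variable {k : Type*} [Field k] {R : Type*} [Ring R] [Algebra k R] [Module.Finite k R]

omit [Module.Finite k R] in
theorem pow_succ_le' {J : Submodule k R} (hJ : NilAlg J) (m : ℕ) :
    J ^ (m + 1 + 1) ≤ J ^ (m + 1) := by
  have hJJ : J * J ≤ J := Submodule.mul_le.2 hJ.mul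
  rw [pow_succ (J) (m + 1), pow_succ J m, mul_assoc]
  exact mul_le_mul_right hJJ _

omit [Module.Finite k R] in
theorem pow_succ_le_self {J : Submodule k R} (hJ : NilAlg J) (m : ℕ) :
    J ^ (m + 1) ≤ J := by
  induction m with
  | zero => simp
  | succ m ih => exact (pow_succ_le' hJ m).trans ih

theorem nilp {J : Submodule k R} (hJ : NilAlg J) : ∃ N : ℕ, J ^ N = ⊥ := by
  classical
  -- stabilisation
  let f : ℕ →o (Submodule k R)ᵒᵈ :=
    ⟨fun n => OrderDual.toDual (J ^ (n + 1)), monotone_nat_of_le_succ fun n => pow_succ_le' hJ n⟩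
  obtain ⟨n, hn⟩ := IsArtinian.monotone_stabilizes f
  have hstab : ∀ m, n ≤ m → J ^ (n + 1) = J ^ (m + 1) := fun m hm => hn m hm
  set I := J ^ (n + 1) with hI
  have hII : I * I = I := by
    rw [hI, ← pow_add]
    exact (hstab (n + 1 + n) (by omega)).symm
  have hIJ : I ≤ J := pow_succ_le_self hJ n
  refine ⟨n + 1, ?_⟩
  by_contra hne
  change I ≠ ⊥ at hne
  obtain ⟨L, ⟨hL1, hL2⟩, hmin⟩ := IsArtinian.set_has_minimal
    {L : Submodule k R | I * L ≠ ⊥ ∧ I * L ≤ L} ⟨I, by rw [hII]; exact hne, by rw [hII]⟩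
  obtain ⟨b, hbL, hb⟩ : ∃ b ∈ L, I * Submodule.span k {b} ≠ ⊥ := by
    by_contra hcon
    push Not at hcon
    apply hL1
    rw [eq_bot_iff, Submodule.mul_le]
    intro y hy b hb
    rw [← hcon b hb]
    exact Submodule.mul_mem_mul hy (Submodule.mem_span_singleton_self b)
  have hL'L : I * Submodule.span k {b} ≤ L :=
    (mul_le_mul_right ((Submodule.span_singleton_le_iff_mem b L).2 hbL) I).trans hL2
  have hIL' : I * (I * Submodule.span k {b}) = I * Submodule.span k {b} := by
    rw [← mul_assoc, hII]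
  have hnlt := hmin (I * Submodule.span k {b}) ⟨by rw [hIL']; exact hb, by rw [hIL']⟩
  have heq : I * Submodule.span k {b} = L := by
    by_contra hne'
    exact hnlt (lt_of_le_of_ne hL'L hne')
  have hbmem : b ∈ I * Submodule.span k {b} := by rw [heq]; exact hbL
  rw [Submodule.mem_mul_span_singleton] at hbmem
  obtain ⟨y, hy, hyb⟩ := hbmem
  obtain ⟨m, hm⟩ := hJ.nil y (hIJ hy)
  have hpow : ∀ j : ℕ, y ^ j * b = b := by
    intro j
    induction j with
    | zero => simp
    | succ j ih => rw [pow_succ, mul_assoc, hyb, ih]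
  have hb0 : b = 0 := by rw [← hpow m, hm, zero_mul]
  apply hb
  rw [hb0]
  simp

theorem pow_eq_bot {J : Submodule k R} (hJ : NilAlg J) {n : ℕ} (h : J ^ n ≤ J ^ (n + 1)) :
    J ^ n = ⊥ := by
  obtain ⟨N, hN⟩ := nilp hJ
  have hall : ∀ j : ℕ, J ^ n ≤ J ^ (n + j) := by
    intro j
    induction j with
    | zero => simp
    | succ j ih =>
      refine ih.trans ?_
      have : J ^ n * J ^ j ≤ J ^ (n + 1) * J ^ j := mul_le_mul_left h _
      rw [← pow_add, ← pow_add] at this
      convert this using 2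
      omega
  have := hall N
  rw [pow_add, hN, Submodule.mul_bot] at this
  exact le_bot_iff.1 this

end Cfsg.Agent.Lib.Helper91KulNILP
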