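import Mathlib
import Cfsg.Agent.Lib.Helper91KulNILP

set_option autoImplicit false

namespace Cfsg.Agent.Lib.H4BrNil

/-- piece `Nil` (PURE MATHLIB, Wedderburn): a finite dimensional nil algebra is nilpotent. -/
theorem nil {k R : Type*} [Field k] [Ring R] [Algebra k R] [FiniteDimensional k R]
    (N : Submodule k R) (hmul : ∀ x ∈ N, ∀ y ∈ N, x * y ∈ N) (hnil : ∀ x ∈ N, IsNilpotent x) :
    ∃ m : ℕ, N ^ m = ⊥ :=
  Cfsg.Agent.Lib.Helper91KulNILP.nilp ⟨hmul, hnil⟩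

end Cfsg.Agent.Lib.H4BrNil
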