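import Mathlib
import Cfsg.Agent.Lib.H4BrDefs
import Cfsg.Agent.Lib.H4BrExt
import Cfsg.Agent.Lib.H4BrDual
import Cfsg.Agent.Lib.H4BrNil
import Cfsg.Agent.Lib.H4BrGen

set_option autoImplicit false

namespace Cfsg.Agent.Lib.H4BrCorner

open Cfsg.Agent.Lib.H4BrDefs

/-- piece `Corner` (PURE MATHLIB, from `Ext`, `Dual`, `Nil`, `Gen`): the corner of a full local idempotent of a
block with at most two independent symmetric forms has dimension at most two. -/
theorem corner {k R : Type*} [Field k] [Ring R] [Algebra k R] [FiniteDimensional k R] (ε ι : R)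
    (hεc : ∀ x, ε * x = x * ε) (hι : ι * ι = ι) (hιε : ι * ε = ι) (n : ℕ) (a b : Fin n → R)
    (hab : ∑ j, a j * ι * b j = ε) (N : Submodule k R)
    (hN1 : ∀ x ∈ N, ι * x = x ∧ x * ι = x) (hN2 : ∀ x ∈ N, ∀ y ∈ N, x * y ∈ N)
    (hN3 : ∀ x ∈ N, IsNilpotent x) (hN4 : ∀ x, ∃ c : k, ι * x * ι - c • ι ∈ N)
    (hW : ∀ f : Fin 3 → (R →ₗ[k] k), (∀ i, Form ε (f i)) → Dep (fun i x => f i x)) :
    Module.finrank k (LinearMap.range (cmap k ι)) ≤ 2 := by
  classical
  set C := LinearMap.range (cmap k ι) with hC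
  have hmemC : ∀ y, ι * y * ι ∈ C := fun y => ⟨y, rfl⟩
  have hdec : ∀ x ∈ C, ∃ (c : k) (u : R), u ∈ N ∧ x = c • ι + u := by
    rintro _ ⟨y, rfl⟩
    obtain ⟨c, hc⟩ := hN4 y
    exact ⟨c, _, hc, by rw [cmap_apply]; abel⟩
  have hNC : N ≤ C := fun x hx => ⟨x, by rw [cmap_apply, (hN1 x hx).1, (hN1 x hx).2]⟩
  have hcomm : ∀ x ∈ C, ∀ y ∈ C, ∃ u ∈ N, ∃ v ∈ N, x * y - y * x = u * v - v * u := by
    intro x hx y hy
    obtain ⟨c, u, hu, rfl⟩ := hdec x hx
    obtain ⟨c', v, hv, rfl⟩ := hdec y hy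
    refine ⟨u, hu, v, hv, ?_⟩
    have h1 := hN1 u hu
    have h2 := hN1 v hv
    simp only [add_mul, mul_add, smul_mul_assoc, mul_smul_comm, hι, h1.1, h1.2, h2.1, h2.2,
      smul_add]
    rw [smul_comm c c' ι]
    abel
  have key : ∀ U : Submodule k R, U ≤ C → (∀ x ∈ C, ∀ y ∈ C, x * y - y * x ∈ U) →
      Module.finrank k C ≤ Module.finrank k U + 2 := by
    intro U hUC hU
    refine Cfsg.Agent.Lib.H4BrDual.dual U C hUC ?_
    intro f hf
    have hτ : ∀ i x y, f i ((ι * x * ι) * (ι * y * ι)) = f i ((ι * y * ι) * (ι * x * ι)) := by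
      intro i x y
      have := hf i _ (hU _ (hmemC x) _ (hmemC y))
      rw [map_sub, sub_eq_zero] at this
      exact this
    choose σ hσ1 hσ2 using fun i =>
      Cfsg.Agent.Lib.H4BrExt.ext ε ι hεc hι hιε n a b hab (f i) (hτ i)
    obtain ⟨c, hc0, hc⟩ := hW σ hσ1
    refine ⟨c, hc0, ?_⟩
    rintro _ ⟨y, rfl⟩
    rw [cmap_apply]
    have := hc (ι * y * ι)
    simp only [hσ2] at this
    exact this
  by_cases hι0 : ι = 0
  · have : C = ⊥ := by
      rw [eq_bot_iff]
      rintro _ ⟨y, rfl⟩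
      rw [cmap_apply, hι0]
      simp
    rw [this, finrank_bot]
    omega
  have hNN : N * N ≤ N := Submodule.mul_le.2 hN2
  -- Step 1
  have h1 : Module.finrank k C ≤ Module.finrank k ↥(N * N) + 2 := by
    refine key (N * N) (hNN.trans hNC) ?_
    intro x hx y hy
    obtain ⟨u, hu, v, hv, he⟩ := hcomm x hx y hy
    rw [he]
    exact Submodule.sub_mem _ (Submodule.mul_mem_mul hu hv) (Submodule.mul_mem_mul hv hu)
  -- Step 2
  have hιN : ι ∉ N := by
    intro h
    obtain ⟨m, hm⟩ := hN3 ι h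
    have hpow : ∀ j : ℕ, ι ^ (j + 1) = ι := by
      intro j
      induction j with
      | zero => simp
      | succ j ih => rw [pow_succ, ih, hι]
    cases m with
    | zero =>
      rw [pow_zero] at hm
      apply hι0
      rw [← mul_one ι, hm, mul_zero]
    | succ m =>
      rw [hpow] at hm
      exact hι0 hm
  have hιC : ι ∈ C := ⟨ι, by rw [cmap_apply, hι, hι]⟩
  have h2 : Module.finrank k N + 1 ≤ Module.finrank k C := by
    have hdisj : Submodule.span k {ι} ⊓ N = ⊥ := by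
      rw [eq_bot_iff]
      rintro x ⟨hx1, hx2⟩
      obtain ⟨c, rfl⟩ := Submodule.mem_span_singleton.mp hx1
      by_cases hc : c = 0
      · rw [hc, zero_smul]
        exact Submodule.zero_mem _
      · exfalso
        apply hιN
        have := N.smul_mem c⁻¹ hx2
        rwa [smul_smul, inv_mul_cancel₀ hc, one_smul] at this
    have h3 := Submodule.finrank_sup_add_finrank_inf_eq (Submodule.span k {ι}) N
    rw [hdisj, finrank_bot, add_zero, finrank_span_singleton hι0] at h3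
    have h4 : Submodule.span k {ι} ⊔ N ≤ C :=
      sup_le ((Submodule.span_singleton_le_iff_mem ι C).2 hιC) hNC
    have h5 := Submodule.finrank_mono h4
    omega
  obtain ⟨x, hx, hgen⟩ := Cfsg.Agent.Lib.H4BrDual.codim (N * N) N hNN (by omega)
  obtain ⟨m, hm⟩ := Cfsg.Agent.Lib.H4BrNil.nil N hN2 hN3
  have hNcomm := Cfsg.Agent.Lib.H4BrGen.gen N m hm hN2 x hx hgen
  -- Step 3
  have h3 := key ⊥ bot_le (by
    intro x hx y hy
    obtain ⟨u, hu, v, hv, he⟩ := hcomm x hx y hy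
    rw [he, hNcomm u hu v hv, sub_self]
    exact Submodule.zero_mem _)
  rw [finrank_bot] at h3
  omega

end Cfsg.Agent.Lib.H4BrCorner
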