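import Mathlib
import Cfsg.Agent.Lib.Helper80StarDefs
import Cfsg.Agent.Lib.H4BrDefs

/-!
# Project 4607 (Brandt: `k(B) = 2 ↔ |D| = 2`), vocabulary of the group side
-/

set_option autoImplicit false

namespace Cfsg.Agent.Lib.H4BrGDefs

open Cfsg Cfsg.Agent.Lib.Helper80StarDefs

/-- the block idempotent as an element of `O G`. -/
noncomputable def eB (M : Ideal AlgInt) [M.IsPrime] {G : Type*} [Group G] [Fintype G]
    (B : Set (IrrCharacter G)) : OA M G := toA M (blockCoeff B)

end Cfsg.Agent.Lib.H4BrGDefs
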