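import Mathlib
import Cfsg.Agent.Lib.H4BrGDefs
import Cfsg.Agent.Lib.Helper80Stab
import Cfsg.Agent.Lib.Helper17StarEXI
import Cfsg.Agent.Lib.Helper81Part

set_option autoImplicit false

namespace Cfsg.Agent.Lib.H4BrEB

open Cfsg Cfsg.Agent.Lib.Helper80StarDefs Cfsg.Agent.Lib.H4BrGDefs Cfsg.Agent.Lib.Helper81Local
open Cfsg.Agent.Lib.Helper20Center

variable {G : Type*} [Group G] [Fintype G] {M : Ideal AlgInt} [hMp : M.IsPrime]

/-- piece `EB`: the block idempotent in `O G`. -/
theorem fn_eB {B : Set (IrrCharacter G)} (hB : IsPBlock M B) : fn (eB M B) = blockCoeff B :=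
  fn_toA (Helper20Block.isSC_blockCoeff hMp hB).2

theorem eB_central {B : Set (IrrCharacter G)} (hB : IsPBlock M B) (x : OA M G) :
    eB M B * x = x * eB M B := by
  apply fn_injective
  rw [fn_mul, fn_mul, fn_eB hB]
  exact Helper81Second2.conv_comm_of_classfn (Helper20Block.blockCoeff_isClassFunction B) _

theorem eB_idem {B : Set (IrrCharacter G)} (hB : IsPBlock M B) : eB M B * eB M B = eB M B := by
  apply fn_injective
  rw [fn_mul, fn_eB hB, Helper80Stab.conv_blockCoeff_self]

theorem eB_ne_zero {B : Set (IrrCharacter G)} (hB : IsPBlock M B) : eB M B ≠ 0 := by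
  intro h
  have h1 := congrArg fn h
  rw [fn_eB hB, fn_zero] at h1
  exact Helper80Stab.blockCoeff_ne_zero (Helper81Block.isPBlock_nonempty hB) h1

theorem evA_eq_zero {B : Set (IrrCharacter G)} (hB : IsPBlock M B) {χ : IrrCharacter G}
    (hχ : χ ∉ B) (ι : OA M G) (h : ι * eB M B = ι) : evA (χ : G → ℂ) ι = 0 := by
  classical
  have hcl : IsClassFunction G (χ : G → ℂ) := Helper4Char.IsIrrCharacter.isClassFunction χ.2
  have h0 : ∀ x, blockPart B (χ : G → ℂ) x = 0 := by
    intro x
    rw [Helper81Part.blockPart_def]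
    apply Finset.sum_eq_zero
    intro ψ _
    split_ifs with hψ
    · have hne : (χ : G → ℂ) ≠ (ψ : G → ℂ) := by
        intro he
        exact hχ ((Subtype.ext he : χ = ψ) ▸ hψ)
      have := Helper4Char.classInner_irr_ne χ.2 ψ.2 hne
      unfold classInner at this
      rw [this, zero_mul]
    · rfl
  rw [← h]
  unfold evA
  rw [fn_mul, fn_eB hB]
  unfold conv
  simp only [Finset.sum_mul]
  rw [Finset.sum_comm]
  apply Finset.sum_eq_zero
  intro x _
  have h1 := h0 x
  rw [Helper81Part.blockPart_eq_sum B hcl] at h1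
  have h2 : ∑ g, fn ι x * blockCoeff B (x⁻¹ * g) * (χ : G → ℂ) g
      = fn ι x * ∑ k, blockCoeff B k * (χ : G → ℂ) (k * x) := by
    rw [Finset.mul_sum]
    apply Fintype.sum_equiv (Equiv.mulLeft x⁻¹)
    intro g
    simp only [Equiv.coe_mulLeft]
    have : (χ : G → ℂ) (x⁻¹ * g * x) = (χ : G → ℂ) g := by
      have := hcl g x⁻¹
      rwa [inv_inv] at this
    rw [this, mul_assoc]
  rw [h2, h1, mul_zero]

end Cfsg.Agent.Lib.H4BrEB
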