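import Mathlib
import Cfsg.Agent.Lib.H4BrDefs

set_option autoImplicit false

namespace Cfsg.Agent.Lib.H4BrFull

open Cfsg.Agent.Lib.H4BrDefs Cfsg.Agent.Lib.Helper80IdemDefs

/-- piece `Full` (generic): lift `E₁₁`. -/
theorem full {O : Type*} [CommRing O] [IsLocalRing O] {A : Type*} [Ring A] [Algebra O A]
    (hl : LiftP O A) (hu : UnitP O A) (e : A) (hec : ∀ x, e * x = x * e) (he : e * e = e)
    (d : ℕ) (hd : 0 < d) (π : A →+* Matrix (Fin d) (Fin d) (IsLocalRing.ResidueField O))
    (hs : Function.Surjective π)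
    (hsm : ∀ (r : O) (a : A), π (r • a) = (IsLocalRing.residue O r) • π a)
    (hπe : π e = 1) (hker : ∀ x, e * x = x → π x = 0 → TN O A x) :
    ∃ (ι : A) (K : Submodule O A) (n : ℕ) (a b : Fin n → A), FullS O A e ι K n a b := by
  classical
  set z : Fin d := ⟨0, hd⟩ with hz
  set E : Matrix (Fin d) (Fin d) (IsLocalRing.ResidueField O) := Matrix.single z z 1 with hE
  have hEE : E * E = E := by
    rw [hE, Matrix.single_mul_single_same, one_mul]
  have hE0 : E ≠ 0 := by
    intro h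
    have := congrFun (congrFun h z) z
    rw [hE, Matrix.single_apply_same] at this
    exact one_ne_zero this
  obtain ⟨a0, ha0⟩ := hs E
  obtain ⟨g, -, hg1, hg2⟩ := hl (π.toAddMonoidHom.ker) a0
    (by
      intro g _ x hx
      rw [AddMonoidHom.mem_ker] at hx ⊢
      change π x = 0 at hx
      change π (g * x) = 0
      rw [map_mul, hx, mul_zero])
    (by
      rw [AddMonoidHom.mem_ker]
      change π (a0 * a0 - a0) = 0
      rw [map_sub, map_mul, ha0, hEE, sub_self])
  set i0 := a0 * g with hi0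
  have hπi0 : π i0 = E := by
    rw [AddMonoidHom.mem_ker] at hg2
    change π (i0 - a0) = 0 at hg2
    rw [map_sub, ha0, sub_eq_zero] at hg2
    exact hg2
  obtain ⟨ι, hιdef⟩ : ∃ ι : A, ι = i0 * e := ⟨_, rfl⟩
  have hιι : ι * ι = ι := by
    calc ι * ι = i0 * (e * i0) * e := by rw [hιdef]; simp only [mul_assoc]
      _ = i0 * (i0 * e) * e := by rw [hec i0]
      _ = (i0 * i0) * (e * e) := by simp only [mul_assoc]
      _ = ι := by rw [hg1, he, hιdef]
  have hπι : π ι = E := by rw [hιdef, map_mul, hπi0, hπe, mul_one]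
  have hι0 : ι ≠ 0 := by
    intro h
    rw [h, map_zero] at hπι
    exact hE0 hπι.symm
  have hιe : ι * e = ι := by rw [hιdef, mul_assoc, he]
  have heι : e * ι = ι := by rw [hec, hιe]
  let K : Submodule O A :=
    { carrier := {x | ι * x = x ∧ x * ι = x ∧ π x = 0}
      add_mem' := by
        rintro x y ⟨h1, h2, h3⟩ ⟨h4, h5, h6⟩
        exact ⟨by rw [mul_add, h1, h4], by rw [add_mul, h2, h5], by rw [map_add, h3, h6, add_zero]⟩
      zero_mem' := ⟨mul_zero _, zero_mul _, map_zero _⟩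
      smul_mem' := by
        rintro r x ⟨h1, h2, h3⟩
        exact ⟨by rw [mul_smul_comm, h1], by rw [smul_mul_assoc, h2], by rw [hsm, h3, smul_zero]⟩ }
  have hKmem : ∀ x, x ∈ K ↔ (ι * x = x ∧ x * ι = x ∧ π x = 0) := fun x => Iff.rfl
  choose a ha using fun s : Fin d => hs (Matrix.single s z 1)
  choose b hb using fun s : Fin d => hs (Matrix.single z s 1)
  set y := ∑ s, a s * ι * b s with hy
  have hπy : π y = 1 := by
    rw [hy, map_sum, ← Matrix.sum_single_one]
    refine Finset.sum_congr rfl fun s _ => ?_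
    rw [map_mul, map_mul, ha, hb, hπι, hE, Matrix.single_mul_single_same,
      Matrix.single_mul_single_same, one_mul, one_mul]
  set w := e - e * y with hw
  have hew : e * w = w := by
    rw [hw, mul_sub, ← mul_assoc, he]
  have hπw : π w = 0 := by
    rw [hw, map_sub, map_mul, hπe, hπy, mul_one, sub_self]
  obtain ⟨U, hU⟩ := hu w (hker w hew hπw)
  have heU : e * (U : A) = e * y := by
    rw [hU, mul_sub, mul_one, hew, hw]
    abel
  have hsum : e = e * y * ((U⁻¹ : Aˣ) : A) := by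
    rw [← heU, mul_assoc, Units.mul_inv, mul_one]
  refine ⟨ι, K, d, fun s => e * a s, fun s => b s * ((U⁻¹ : Aˣ) : A), ?_⟩
  refine ⟨hιι, hι0, hιe, ?_, ?_, ?_, ?_, ?_⟩
  · conv_rhs => rw [hsum]
    rw [hy, Finset.mul_sum, Finset.sum_mul]
    refine Finset.sum_congr rfl fun s _ => ?_
    simp only [mul_assoc]
  · intro x hx
    exact ⟨hx.1, hx.2.1⟩
  · intro x hx
    refine hker x ?_ hx.2.2
    rw [← hx.1, ← mul_assoc, heι]
  · intro x hx y' hy'
    refine ⟨?_, ?_, ?_⟩
    · rw [← mul_assoc, hx.1]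
    · rw [mul_assoc, hy'.2.1]
    · rw [map_mul, hx.2.2, zero_mul]
  · intro x
    obtain ⟨r, hr⟩ := IsLocalRing.residue_surjective (π x z z)
    refine ⟨r, ?_, ?_, ?_⟩
    · rw [mul_sub, mul_smul_comm, hιι, ← mul_assoc, ← mul_assoc, hιι]
    · rw [sub_mul, smul_mul_assoc, hιι, mul_assoc, hιι]
    · rw [map_sub, map_mul, map_mul, hsm, hπι, hr, hE, Matrix.single_mul_mul_single, one_mul,
        mul_one, Matrix.smul_single, smul_eq_mul, mul_one, sub_self]

end Cfsg.Agent.Lib.H4BrFull
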