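import Mathlib
import Cfsg.Agent.Lib.H4BrGDefs
import Cfsg.Agent.Lib.H4BrEB
import Cfsg.Agent.Lib.Helper40ModRL
import Cfsg.Agent.Lib.Helper91StarBASIC

set_option autoImplicit false

namespace Cfsg.Agent.Lib.H4BrH1

open Cfsg Cfsg.Agent.Lib.Helper80StarDefs Cfsg.Agent.Lib.H4BrGDefs Cfsg.Agent.Lib.Helper81Local
open Cfsg.Agent.Lib.H4BrDefs Cfsg.Agent.Lib.Helper80IdemDefs Cfsg.Agent.Lib.Helper4ModRed

variable {G : Type*} [Group G] [Fintype G] {M : Ideal AlgInt} [M.IsPrime] {p : ℕ}

open Cfsg.Agent.Lib.Helper91StarBASIC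

/-- `p x` lies in `𝔪 A` -/
theorem natCast_mul_mem_mA (hM : IsPModular p M) (r : OA M G) :
    (p : OA M G) * r ∈ mA (Rt M) (OA M G) := by
  have h1 : (p : OA M G) * r = (p : Rt M) • r := by
    rw [Nat.cast_smul_eq_nsmul, nsmul_eq_mul]
  rw [h1]
  refine Submodule.smul_mem_smul (mem_maximalIdeal_Rt_iff.mpr ?_) trivial
  have : (((p : Rt M) : Rt M) : ℂ) = (p : ℂ) := by simp
  rw [this]
  exact memLocalIdeal_p hM

/-- generic: `(a - 1) ^ (p ^ n) ∈ p A` if `a ^ (p ^ n) = 1` -/
theorem sub_one_pow_eq {A : Type*} [Ring A] {q : ℕ} (hq : q.Prime) (a : A) {n : ℕ}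
    (ha : a ^ q ^ n = 1) : ∃ r : A, (a - 1) ^ q ^ n = (q : A) * r := by
  have hc2 : Commute a (-1 : A) := (Commute.one_right _).neg_right
  obtain ⟨r, hr⟩ := hc2.exists_add_pow_prime_pow_eq hq n
  rw [sub_eq_add_neg, hr, ha]
  rcases Nat.even_or_odd (q ^ n) with he | ho
  · rw [he.neg_one_pow]
    have hp2 : q = 2 := by
      rw [Nat.even_pow] at he
      exact (Nat.Prime.even_iff hq).1 he.1
    refine ⟨1 + a * -1 * r, ?_⟩
    subst hp2
    push_cast
    noncomm_ring
  · rw [ho.neg_one_pow, add_neg_cancel, zero_add, mul_assoc, mul_assoc]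
    exact ⟨_, rfl⟩

/-- generic: `(s (a - 1)) ^ m = s ^ m (a - 1) ^ m` -/
theorem mul_sub_one_pow {A : Type*} [Ring A] {s a : A} (h : s * a = a * s) (m : ℕ) :
    (s * (a - 1)) ^ m = s ^ m * (a - 1) ^ m := by
  have hc : Commute s (a - 1) := Commute.sub_right h (Commute.one_right _)
  exact hc.mul_pow m

/-- `s (u - 1)` is topologically nilpotent for a `p`-element `u` commuting with `s` -/
theorem tn_sec [Fact p.Prime] (hM : IsPModular p M) {s u : G} (hsu : Commute s u) {n : ℕ}
    (hu : u ^ p ^ n = 1) : TN (Rt M) (OA M G) (ptA M s * (ptA M u - 1)) := by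
  have hp : p.Prime := Fact.out
  refine ⟨p ^ n, ?_⟩
  rw [mul_sub_one_pow (by rw [← ptA_mul, ← ptA_mul, hsu.eq])]
  apply mul_mem_mA
  obtain ⟨r, hr⟩ := sub_one_pow_eq hp (ptA M u) (n := n) (by rw [← ptA_pow, hu, ptA_one])
  rw [hr]
  exact natCast_mul_mem_mA hM _

/-- a form evaluated through the coefficients -/
theorem form_eq_sum (t : OA M G →ₗ[Rt M] IsLocalRing.ResidueField (Rt M)) (a : OA M G) :
    t a = ∑ g : G, IsLocalRing.residue (Rt M) ⟨fn a g, rv_fn a g⟩ * t (ptA M g) := by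
  conv_lhs => rw [eq_sum_smul_ptA a]
  rw [map_sum]
  apply Finset.sum_congr rfl
  intro g _
  rw [map_smul, Algebra.smul_def]
  rfl

/-- piece `H1`: `l(B) = 1` in terms of forms (via `Helper40ModRL.rank_link`). -/
theorem h1 [Fact p.Prime] (hM : IsPModular p M) {B : Set (IrrCharacter G)} (hB : IsPBlock M B)
    (hr : blockRank p B = 1) (t : Fin 2 → (OA M G →ₗ[Rt M] IsLocalRing.ResidueField (Rt M)))
    (ht : ∀ i, Form (eB M B) (t i) ∧ ∀ x, TN (Rt M) (OA M G) x → t i x = 0) :
    Dep (fun i x => t i x) := by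
  classical
  by_contra hdep
  have hli : LinearIndependent (kk M) (fun (i : Fin 2) (g : G) => t i (ptA M g)) := by
    rw [Fintype.linearIndependent_iff]
    intro c hc
    by_contra hne
    apply hdep
    refine ⟨c, fun h0 => hne (fun i => by rw [h0]; rfl), fun x => ?_⟩
    have h2 : ∀ g, ∑ i, c i * t i (ptA M g) = 0 := by
      intro g
      have := congrFun hc g
      simpa only [Finset.sum_apply, Pi.smul_apply, smul_eq_mul, Pi.zero_apply] using this
    calc ∑ i, c i * t i x
        = ∑ i, c i * ∑ g : G, IsLocalRing.residue (Rt M) ⟨fn x g, rv_fn x g⟩ * t i (ptA M g) := by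
          apply Finset.sum_congr rfl
          intro i _
          rw [← form_eq_sum]
      _ = ∑ g : G, IsLocalRing.residue (Rt M) ⟨fn x g, rv_fn x g⟩ * ∑ i, c i * t i (ptA M g) := by
          simp only [Finset.mul_sum]
          rw [Finset.sum_comm]
          apply Finset.sum_congr rfl
          intro g _
          apply Finset.sum_congr rfl
          intro i _
          ring
      _ = 0 := by simp only [h2, mul_zero, Finset.sum_const_zero]
  have hfe := Cfsg.Agent.Lib.H4BrEB.fn_eB hB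
  have := Cfsg.Agent.Lib.Helper40ModRL.rank_link hM
    (Cfsg.Agent.Lib.Helper81Subsec.isBlockUnion_of_isPBlock hB)
    (fun g => IsLocalRing.residue (Rt M) ⟨fn (eB M B) g, rv_fn _ g⟩)
    (by
      intro g
      have hg := congrFun hfe g
      refine ⟨by rw [← hg]; exact rv_fn _ g, ?_⟩
      congr 1
      exact Subtype.ext hg.symm)
    (fun (i : Fin 2) (g : G) => t i (ptA M g)) hli
    (by
      intro i g h
      show t i (ptA M (h * g * h⁻¹)) = t i (ptA M g)
      rw [mul_assoc, ptA_mul, (ht i).1.1, ptA_mul, mul_assoc, ptA_inv_mul, mul_one])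
    (by
      rintro i s u hsu ⟨n, hn⟩
      show t i (ptA M (s * u)) = t i (ptA M s)
      have h0 := (ht i).2 _ (tn_sec hM hsu hn)
      rw [mul_sub, mul_one, map_sub, sub_eq_zero, ← ptA_mul] at h0
      exact h0)
    (by
      intro i g
      show ∑ u, IsLocalRing.residue (Rt M) ⟨fn (eB M B) u, rv_fn _ u⟩ * t i (ptA M (u * g))
        = t i (ptA M g)
      rw [← (ht i).1.2 (ptA M g)]
      conv_rhs => rw [eq_sum_smul_ptA (eB M B)]
      rw [Finset.sum_mul, map_sum]
      apply Finset.sum_congr rfl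
      intro u _
      rw [smul_mul_assoc, map_smul, ← ptA_mul, Algebra.smul_def]
      rfl)
  rw [hr] at this
  simp at this

end Cfsg.Agent.Lib.H4BrH1
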