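import Mathlib
import Cfsg.Agent.Lib.H4BrGDefs
import Cfsg.Agent.Lib.H4BrEB
import Cfsg.Agent.Lib.H4BrCardLink
import Cfsg.Agent.Lib.Helper84StarF1

set_option autoImplicit false

namespace Cfsg.Agent.Lib.H4BrH2

open Cfsg Cfsg.Agent.Lib.Helper80StarDefs Cfsg.Agent.Lib.H4BrGDefs Cfsg.Agent.Lib.Helper81Local
open Cfsg.Agent.Lib.H4BrDefs Cfsg.Agent.Lib.Helper80IdemDefs Cfsg.Agent.Lib.Helper4ModRed
open Cfsg.Agent.Lib.Helper20GA Cfsg.Agent.Lib.Helper84StarF1

variable {G : Type*} [Group G] [Fintype G] {M : Ideal AlgInt} [M.IsPrime] {p : ℕ}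

theorem fn_sum {ι : Type*} (s : Finset ι) (f : ι → OA M G) (g : G) :
    fn (∑ i ∈ s, f i) g = ∑ i ∈ s, fn (f i) g := by
  classical
  induction s using Finset.induction_on with
  | empty => simp [fn_zero]
  | insert a s ha ih => rw [Finset.sum_insert ha, Finset.sum_insert ha, fn_add, Pi.add_apply, ih]

theorem ptA_mul (g h : G) : ptA M (g * h) = ptA M g * ptA M h := by
  apply fn_injective
  rw [fn_mul, fn_ptA', fn_ptA', fn_ptA']
  exact (pt_mul_pt g h).symm

theorem ptA_one : ptA M (1 : G) = 1 := by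
  apply fn_injective
  rw [fn_ptA', fn_one]
  rfl

theorem expand (x : OA M G) : x = ∑ g, (⟨fn x g, x.2 g⟩ : Rt M) • ptA M g := by
  classical
  apply fn_injective
  funext h
  rw [fn_sum, Finset.sum_eq_single h]
  · rw [fn_smul, fn_ptA']
    show fn x h = fn x h * pt h h
    simp [pt]
  · intro b _ hb
    rw [fn_smul, fn_ptA']
    show fn x b * pt b h = 0
    simp [pt, hb.symm]
  · intro hh; exact absurd (Finset.mem_univ _) hh

theorem apply_eq (t : OA M G →ₗ[Rt M] IsLocalRing.ResidueField (Rt M)) (x : OA M G) :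
    t x = ∑ g, IsLocalRing.residue (Rt M) ⟨fn x g, x.2 g⟩ * t (ptA M g) := by
  conv_lhs => rw [expand x]
  rw [map_sum]
  apply Finset.sum_congr rfl
  intro g _
  rw [map_smul, Algebra.smul_def]
  rfl

/-- the class function of a form. -/
theorem tau_class {e : OA M G} {t : OA M G →ₗ[Rt M] IsLocalRing.ResidueField (Rt M)}
    (ht : Form e t) (g h : G) : t (ptA M (h * g * h⁻¹)) = t (ptA M g) := by
  rw [ptA_mul, ht.1, ← ptA_mul]
  congr 2
  group

theorem tau_block {B : Set (IrrCharacter G)} (hB : IsPBlock M B)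
    {t : OA M G →ₗ[Rt M] IsLocalRing.ResidueField (Rt M)} (ht : Form (eB M B) t) (g : G) :
    ∑ u, IsLocalRing.residue (Rt M) ⟨fn (eB M B) u, (eB M B).2 u⟩ * t (ptA M (u * g))
      = t (ptA M g) := by
  rw [← ht.2 (ptA M g)]
  conv_rhs => rw [expand (eB M B), Finset.sum_mul, map_sum]
  apply Finset.sum_congr rfl
  intro u _
  rw [smul_mul_assoc, map_smul, Algebra.smul_def, ptA_mul]
  rfl

theorem li_of_not_dep {n : ℕ} (t : Fin n → (OA M G →ₗ[Rt M] IsLocalRing.ResidueField (Rt M)))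
    (h : ¬ Dep (fun i x => t i x)) :
    LinearIndependent (kk M) (fun (i : Fin n) (g : G) => t i (ptA M g)) := by
  rw [Fintype.linearIndependent_iff]
  intro c hc
  by_contra hne
  apply h
  refine ⟨c, fun h0 => hne (fun i => by rw [h0]; rfl), fun x => ?_⟩
  have h1 : ∀ g, ∑ i, c i * t i (ptA M g) = 0 := by
    intro g
    have := congrFun hc g
    simpa [Finset.sum_apply] using this
  simp only [apply_eq (t _) x, Finset.mul_sum]
  rw [Finset.sum_comm]
  apply Finset.sum_eq_zero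
  intro g _
  have h2 : ∑ i, c i * (IsLocalRing.residue (Rt M) ⟨fn x g, x.2 g⟩ * t i (ptA M g))
      = IsLocalRing.residue (Rt M) ⟨fn x g, x.2 g⟩ * ∑ i, c i * t i (ptA M g) := by
    rw [Finset.mul_sum]
    apply Finset.sum_congr rfl
    intro i _
    ring
  rw [h2, h1, mul_zero]

/-- piece `H2`: `k(B) = 2` in terms of forms (via `CardLink`). -/
theorem h2 {B : Set (IrrCharacter G)} (hB : IsPBlock M B)
    (hc : Nat.card B = 2) (t : Fin 3 → (OA M G →ₗ[Rt M] IsLocalRing.ResidueField (Rt M)))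
    (ht : ∀ i, Form (eB M B) (t i)) :
    Dep (fun i x => t i x) := by
  by_contra hnd
  have h1 := H4BrCardLink.card_link (M := M) (B := B)
    (fun u => IsLocalRing.residue (Rt M) ⟨fn (eB M B) u, (eB M B).2 u⟩)
    (fun g => ⟨by rw [← H4BrEB.fn_eB hB]; exact (eB M B).2 g, by
      congr 1
      apply Subtype.ext
      exact (congrFun (H4BrEB.fn_eB hB) g).symm⟩)
    (fun (i : Fin 3) (g : G) => t i (ptA M g)) (li_of_not_dep t hnd)
    (fun i g h => tau_class (ht i) g h) (fun i g => tau_block hB (ht i) g)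
  rw [hc] at h1
  simp at h1

end Cfsg.Agent.Lib.H4BrH2
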