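import Mathlib
import Cfsg.Agent.Lib.H4BrGDefs
import Cfsg.Agent.Lib.H4BrEB
import Cfsg.Agent.Lib.Helper84StarF1
import Cfsg.Agent.Lib.Helper80StarA
import Cfsg.Agent.Lib.Helper91StarFIN
import Cfsg.Agent.Lib.Helper21StarINST
import Cfsg.Agent.Lib.Helper4Char2
import Cfsg.Agent.Lib.Helper81Base

set_option autoImplicit false

namespace Cfsg.Agent.Lib.H4BrNIdeal

open Cfsg Cfsg.Agent.Lib.Helper80StarDefs Cfsg.Agent.Lib.H4BrGDefs Cfsg.Agent.Lib.Helper81Local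
open Cfsg.Agent.Lib.H4BrDefs Cfsg.Agent.Lib.Helper4Char

variable {G : Type*} [Group G] [Fintype G] {M : Ideal AlgInt} [M.IsPrime] {p : ℕ}

open Classical in
/-- the value of an irreducible character at an idempotent only depends on the regular elements -/
theorem evA_reg [Fact p.Prime] (hM : IsPModular p M) (χ : IrrCharacter G) (ι : OA M G)
    (hι : ι * ι = ι) :
    evA (χ : G → ℂ) ι = ∑ g, if p ∣ orderOf g then 0 else fn ι g * (χ : G → ℂ) g := by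
  have := Helper91StarFIN.finite_OA (M := M) (G := G)
  have := Helper91StarFIN.finite_End (M := M) (G := G)
  have hCS := Helper84StarF1.classSumP (G := G) hM
    (Helper80StarA.vanishP p (Helper21StarINST.sepP_Rt hM))
  have := hCS ⊤ ι (χ : G → ℂ) hι (fun g hg => absurd (Subgroup.mem_top g) hg)
    (fun h _ g => (Helper4Char.IsIrrCharacter.isClassFunction χ.2) g h)
  unfold evA
  convert this

theorem evA_memLocalRing (χ : IrrCharacter G) (ι : OA M G) :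
    MemLocalRing M (evA (χ : G → ℂ) ι) := by
  unfold evA
  apply memLocalRing_sum
  intro g _
  exact memLocalRing_mul (rv_fn ι g) (memLocalRing_of_isIntegral
    (Helper4Char2.IsCharacter.isIntegral (Helper4Char.IsIrrCharacter.isCharacter χ.2) g))

/-- piece `NIdeal`: `∑_χ χ(ι)² = χ₁(ι)² (1 + r²) ∈ 𝔪`. -/
theorem nIdeal [Fact p.Prime] (hM : IsPModular p M) {B : Set (IrrCharacter G)}
    (hB : IsPBlock M B) (d : ℕ) (hd : 1 ≤ d) (χ₁ χ₂ : IrrCharacter G) (hne : χ₁ ≠ χ₂)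
    (hBe : B = {χ₁, χ₂})
    (hreg : ∀ g, ¬ p ∣ orderOf g →
        (χ₁ : G → ℂ) 1 * (χ₂ : G → ℂ) g = (χ₂ : G → ℂ) 1 * (χ₁ : G → ℂ) g)
    (hloc : MemLocalRing M ((((χ₁ : G → ℂ) 1) ^ 2 + ((χ₂ : G → ℂ) 1) ^ 2) /
        ((p : ℂ) ^ d * ((χ₁ : G → ℂ) 1) ^ 2)))
    (ι : OA M G) (hι : ι * ι = ι) (hιe : ι * eB M B = ι) :
    MemLocalIdeal M (∑ χ : IrrCharacter G, (evA (χ : G → ℂ) ι) ^ 2) := by
  classical
  have hp : p.Prime := Fact.out
  have hsum : ∑ χ : IrrCharacter G, (evA (χ : G → ℂ) ι) ^ 2 =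
      (evA (χ₁ : G → ℂ) ι) ^ 2 + (evA (χ₂ : G → ℂ) ι) ^ 2 := by
    rw [← Finset.sum_pair (f := fun χ : IrrCharacter G => (evA (χ : G → ℂ) ι) ^ 2) hne]
    symm
    apply Finset.sum_subset (Finset.subset_univ _)
    intro χ _ hχ
    have hχB : χ ∉ B := by
      rw [hBe]
      simpa using hχ
    rw [H4BrEB.evA_eq_zero hB hχB ι hιe]
    ring
  have hrel : (χ₁ : G → ℂ) 1 * evA (χ₂ : G → ℂ) ι = (χ₂ : G → ℂ) 1 * evA (χ₁ : G → ℂ) ι := by
    rw [evA_reg hM χ₁ ι hι, evA_reg hM χ₂ ι hι, Finset.mul_sum, Finset.mul_sum]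
    apply Finset.sum_congr rfl
    intro g _
    split_ifs with h
    · simp
    · have := hreg g h
      calc (χ₁ : G → ℂ) 1 * (fn ι g * (χ₂ : G → ℂ) g)
          = fn ι g * ((χ₁ : G → ℂ) 1 * (χ₂ : G → ℂ) g) := by ring
        _ = (χ₂ : G → ℂ) 1 * (fn ι g * (χ₁ : G → ℂ) g) := by rw [this]; ring
  have ha : (χ₁ : G → ℂ) 1 ≠ 0 := Helper81Base.irr_one_ne_zero χ₁
  have hpc : (p : ℂ) ≠ 0 := by exact_mod_cast hp.ne_zero
  have hE2 : evA (χ₂ : G → ℂ) ι = (χ₂ : G → ℂ) 1 * evA (χ₁ : G → ℂ) ι / (χ₁ : G → ℂ) 1 := by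
    rw [eq_div_iff ha, mul_comm, hrel]
  have hfin : (evA (χ₁ : G → ℂ) ι) ^ 2 + (evA (χ₂ : G → ℂ) ι) ^ 2 =
      ((evA (χ₁ : G → ℂ) ι) ^ 2 * ((((χ₁ : G → ℂ) 1) ^ 2 + ((χ₂ : G → ℂ) 1) ^ 2) /
        ((p : ℂ) ^ d * ((χ₁ : G → ℂ) 1) ^ 2))) * (p : ℂ) ^ d := by
    rw [hE2]
    field_simp
  rw [hsum, hfin]
  apply memLocalIdeal_mul (memLocalRing_mul (memLocalRing_pow (evA_memLocalRing χ₁ ι) 2) hloc)
  obtain ⟨k, rfl⟩ : ∃ k, d = k + 1 := ⟨d - 1, by omega⟩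
  rw [pow_succ]
  exact memLocalIdeal_mul (memLocalRing_pow (memLocalRing_natCast p) k) (memLocalIdeal_p hM)

end Cfsg.Agent.Lib.H4BrNIdeal
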