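import Mathlib
import Cfsg.Agent.Lib.Helper81Local

set_option autoImplicit false

namespace Cfsg.Agent.Lib.H4BrNum

open Cfsg

/-- the arithmetic core -/
theorem num_aux (a g f₂ d : ℕ) (hg : ¬ 2 ∣ g)
    (h : 2 ^ (d + 2 * a) ∣ (2 ^ a * g) ^ 2 + f₂ ^ 2) : d ≤ 1 := by
  by_contra hd
  have hd2 : 2 ≤ d := by omega
  have h4 : (2 ^ a) ^ 2 * 4 ∣ (2 ^ a * g) ^ 2 + f₂ ^ 2 := by
    refine dvd_trans ?_ h
    have : (2 ^ a) ^ 2 * 4 = 2 ^ (2 + 2 * a) := by ring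
    rw [this]
    exact pow_dvd_pow 2 (by omega)
  have h5 : (2 ^ a) ^ 2 ∣ f₂ ^ 2 := by
    have h6 : (2 ^ a) ^ 2 ∣ (2 ^ a * g) ^ 2 + f₂ ^ 2 := dvd_trans (dvd_mul_right _ _) h4
    have h7 : (2 ^ a) ^ 2 ∣ (2 ^ a * g) ^ 2 := by rw [mul_pow]; exact dvd_mul_right _ _
    exact (Nat.dvd_add_right h7).1 h6
  have h8 : 2 ^ a ∣ f₂ := (Nat.pow_dvd_pow_iff (by norm_num)).1 h5
  obtain ⟨k, rfl⟩ := h8
  have h9 : (2 ^ a * g) ^ 2 + (2 ^ a * k) ^ 2 = (2 ^ a) ^ 2 * (g ^ 2 + k ^ 2) := by ring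
  rw [h9] at h4
  have h10 : 4 ∣ g ^ 2 + k ^ 2 := Nat.dvd_of_mul_dvd_mul_left (by positivity) h4
  have hg1 : g % 4 = 1 ∨ g % 4 = 3 := by omega
  have hk : k % 4 = 0 ∨ k % 4 = 1 ∨ k % 4 = 2 ∨ k % 4 = 3 := by omega
  have h11 : (g ^ 2 + k ^ 2) % 4 = 0 := Nat.mod_eq_zero_of_dvd h10
  rw [Nat.add_mod, Nat.pow_mod, Nat.pow_mod k] at h11
  rcases hg1 with h | h <;> rcases hk with h' | h' | h' | h' <;> rw [h, h'] at h11 <;> revert h11 <;> decide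

/-- piece `Num`: `v₂(f₁² + f₂²) ≤ 2 v₂(f₁) + 1`. -/
theorem num {M : Ideal AlgInt} (hM : IsPModular 2 M) (f₁ f₂ d : ℕ) (h1 : 0 < f₁) (h2 : 0 < f₂)
    (h : MemLocalRing M ((((f₁ : ℂ)) ^ 2 + ((f₂ : ℂ)) ^ 2) / ((2 : ℂ) ^ d * ((f₁ : ℂ)) ^ 2))) :
    d ≤ 1 := by
  have hne : f₁ ^ 2 + f₂ ^ 2 ≠ 0 := by positivity
  have hf1 : (f₁ : ℂ) ≠ 0 := by exact_mod_cast h1.ne'
  have hle := Helper81Local.factorization_le_of_eq_mul hM (a := f₁ ^ 2 + f₂ ^ 2) (b := 2 ^ d * f₁ ^ 2)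
    hne h (by
      push_cast
      field_simp)
  have hb : 2 ^ d * f₁ ^ 2 ≠ 0 := by positivity
  have hfe := (Nat.ordProj_mul_ordCompl_eq_self f₁ 2).symm
  have hodd := Nat.not_dvd_ordCompl Nat.prime_two h1.ne'
  set a := f₁.factorization 2
  set g := f₁ / 2 ^ a
  have hd1 : 2 ^ (d + 2 * a) ∣ 2 ^ d * f₁ ^ 2 := by
    rw [hfe]
    exact ⟨g ^ 2, by ring⟩
  have hd2 := (Nat.Prime.pow_dvd_iff_le_factorization Nat.prime_two hb).1 hd1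
  have hd3 := (Nat.Prime.pow_dvd_iff_le_factorization Nat.prime_two hne).2 (hd2.trans hle)
  rw [hfe] at hd3
  exact num_aux a g f₂ d hodd hd3

end Cfsg.Agent.Lib.H4BrNum
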