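import Mathlib
import Cfsg.Agent.Lib.H4BrDefs

set_option autoImplicit false

namespace Cfsg.Agent.Lib.H4BrOneBlk

open Cfsg.Agent.Lib.H4BrDefs Cfsg.Agent.Lib.Helper80IdemDefs

/-- piece `OneBlk` (generic): a block with only one "Brauer character" has only one Wedderburn component. -/
theorem oneBlk {O : Type*} [CommRing O] [IsLocalRing O] {A : Type*} [Ring A] [Algebra O A]
    (hw : WedP O A) (hz : ZeroP O A) (e : A) (hec : ∀ x, e * x = x * e) (he : e * e = e)
    (he0 : e ≠ 0)
    (h1 : ∀ t : Fin 2 → (A →ₗ[O] IsLocalRing.ResidueField O),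
      (∀ i, Form e (t i) ∧ ∀ x, TN O A x → t i x = 0) → Dep (fun i x => t i x)) :
    ∃ (d : ℕ) (_ : 0 < d) (π : A →+* Matrix (Fin d) (Fin d) (IsLocalRing.ResidueField O)),
      Function.Surjective π ∧ (∀ (r : O) (a : A), π (r • a) = (IsLocalRing.residue O r) • π a) ∧
      π e = 1 ∧ ∀ x, e * x = x → π x = 0 → TN O A x := by
  classical
  obtain ⟨n, d, hd, π, hsurj, hsl, hker, -⟩ := hw
  -- `π` kills `𝔪 A`
  have hmA : ∀ y ∈ mA O A, π y = 0 := by
    intro y hy
    unfold mA at hy
    induction hy using Submodule.smul_induction_on' with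
    | smul r hr a _ =>
      rw [hsl, (IsLocalRing.residue_eq_zero_iff r).2 hr, zero_smul]
    | add x _ y _ h1 h2 => rw [map_add, h1, h2, add_zero]
  have hzz : π e * π e = π e := by rw [← map_mul, he]
  have hzc : ∀ y, π e * y = y * π e := by
    intro y
    obtain ⟨x, rfl⟩ := hsurj y
    rw [← map_mul, ← map_mul, hec]
  have hz0 : π e ≠ 0 := fun h => he0 (hz e he (hker e h))
  -- each component is `0` or `1`
  have h01 : ∀ i, π e i = 0 ∨ π e i = 1 := by
    intro i
    have hcomm : ∀ a b : Fin (d i), Commute (Matrix.single a b (1 : IsLocalRing.ResidueField O))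
        (π e i) := by
      intro a b
      have := congrFun (hzc (Pi.single i (Matrix.single a b 1))) i
      simp only [Pi.mul_apply, Pi.single_eq_same] at this
      exact this.symm
    obtain ⟨c, hc⟩ := Matrix.mem_range_scalar_iff_commute_single'.2 hcomm
    have hii : π e i * π e i = π e i := by
      have := congrFun hzz i
      simpa only [Pi.mul_apply] using this
    rw [← hc, ← map_mul] at hii
    have hcc : c * c = c := by
      have := congrFun (congrFun hii ⟨0, hd i⟩) ⟨0, hd i⟩
      simpa using this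
    have : c = 0 ∨ c = 1 := by
      have h : c * (c - 1) = 0 := by rw [mul_sub, hcc, mul_one, sub_self]
      rcases mul_eq_zero.1 h with h | h
      · exact Or.inl h
      · exact Or.inr (sub_eq_zero.1 h)
    rcases this with rfl | rfl
    · left; rw [← hc, map_zero]
    · right; rw [← hc, map_one]
  obtain ⟨i0, hi0⟩ : ∃ i, π e i ≠ 0 := by
    by_contra hcon
    push Not at hcon
    exact hz0 (funext hcon)
  have hi0' : π e i0 = 1 := (h01 i0).resolve_left hi0
  -- the trace forms
  let tr : ∀ i : Fin n, A →ₗ[O] IsLocalRing.ResidueField O := fun i =>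
    { toFun := fun a => Matrix.trace (π a i)
      map_add' := by
        intro a b
        rw [map_add, Pi.add_apply, Matrix.trace_add]
      map_smul' := by
        intro r a
        rw [hsl, Pi.smul_apply, Matrix.trace_smul, RingHom.id_apply, Algebra.smul_def]
        rfl }
  have htr : ∀ i a, tr i a = Matrix.trace (π a i) := fun _ _ => rfl
  have hform : ∀ i, π e i = 1 → Form e (tr i) ∧ ∀ x, TN O A x → tr i x = 0 := by
    intro i hi
    refine ⟨⟨fun x y => ?_, fun x => ?_⟩, ?_⟩
    · rw [htr, htr, map_mul, map_mul, Pi.mul_apply, Pi.mul_apply, Matrix.trace_mul_comm]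
    · rw [htr, htr, map_mul, Pi.mul_apply, hi, one_mul]
    · rintro x ⟨m, hm⟩
      rw [htr]
      have h0 : (π x i) ^ m = 0 := by
        have := congrFun (hmA _ hm) i
        rwa [map_pow, Pi.pow_apply] at this
      exact (Matrix.isNilpotent_trace_of_isNilpotent ⟨m, h0⟩).eq_zero
  have huniq : ∀ i, i ≠ i0 → π e i = 0 := by
    intro i1 hne
    by_contra h1'
    have hi1' : π e i1 = 1 := (h01 i1).resolve_left h1'
    obtain ⟨c, hc0, hc⟩ := h1 ![tr i0, tr i1] (by
      intro i
      fin_cases i
      · exact hform i0 hi0'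
      · exact hform i1 hi1')
    apply hc0
    obtain ⟨x0, hx0⟩ := hsurj (Pi.single i0 (Matrix.single ⟨0, hd i0⟩ ⟨0, hd i0⟩ 1))
    obtain ⟨x1, hx1⟩ := hsurj (Pi.single i1 (Matrix.single ⟨0, hd i1⟩ ⟨0, hd i1⟩ 1))
    have e0 := hc x0
    have e1 := hc x1
    simp only [Fin.sum_univ_two, Matrix.cons_val_zero, Matrix.cons_val_one, htr, hx0, hx1,
      Pi.single_eq_same, Pi.single_eq_of_ne hne, Pi.single_eq_of_ne hne.symm,
      Matrix.trace_single_eq_same, Matrix.trace_zero, mul_one, mul_zero, add_zero, zero_add]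
      at e0 e1
    funext i
    fin_cases i
    · exact e0
    · exact e1
  refine ⟨d i0, hd i0, (Pi.evalRingHom _ i0).comp π, ?_, ?_, hi0', ?_⟩
  · intro y
    obtain ⟨x, hx⟩ := hsurj (Pi.single i0 y)
    exact ⟨x, by simp [hx]⟩
  · intro r a
    simp [hsl]
  · intro x hex hx
    apply hker
    funext i
    by_cases hi : i = i0
    · subst hi
      exact hx
    · rw [← hex, map_mul, Pi.mul_apply, huniq i hi, zero_mul]
      rfl

end Cfsg.Agent.Lib.H4BrOneBlk
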