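import Mathlib
import Cfsg.Agent.Lib.H4BrDefs
import Cfsg.Agent.Lib.H4BrCorner
import Cfsg.Agent.Lib.Helper7StarWED

set_option autoImplicit false

namespace Cfsg.Agent.Lib.H4BrPush

open Cfsg.Agent.Lib.H4BrDefs Cfsg.Agent.Lib.Helper80IdemDefs Cfsg.Agent.Lib.Helper7StarWED
open scoped TensorProduct

section aux

variable {O : Type*} [CommRing O] [IsLocalRing O] {A : Type*} [Ring A] [Algebra O A]


/-- the reduction map. -/
noncomputable def inc (a : A) : (IsLocalRing.ResidueField O) ⊗[O] A := (1 : IsLocalRing.ResidueField O) ⊗ₜ[O] a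

theorem inc_mul (a b : A) : inc (O := O) (a * b) = inc a * inc b := by
  unfold inc
  rw [Algebra.TensorProduct.tmul_mul_tmul, one_mul]

theorem inc_add (a b : A) : inc (O := O) (a + b) = inc a + inc b := by
  unfold inc
  rw [TensorProduct.tmul_add]

theorem inc_sub (a b : A) : inc (O := O) (a - b) = inc a - inc b := by
  unfold inc
  rw [TensorProduct.tmul_sub]

theorem inc_zero : inc (O := O) (0 : A) = 0 := by
  unfold inc
  rw [TensorProduct.tmul_zero]

theorem inc_one : inc (O := O) (1 : A) = 1 := rfl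

theorem inc_smul (r : O) (a : A) : inc (O := O) (r • a) = (IsLocalRing.residue O r) • inc a := by
  unfold inc
  rw [← res_tmul, TensorProduct.smul_tmul', smul_eq_mul, mul_one]

theorem inc_sum {ι : Type*} (s : Finset ι) (f : ι → A) :
    inc (O := O) (∑ i ∈ s, f i) = ∑ i ∈ s, inc (f i) := by
  unfold inc
  rw [TensorProduct.tmul_sum]

theorem inc_pow (a : A) (m : ℕ) : inc (O := O) (a ^ m) = inc a ^ m := by
  induction m with
  | zero => rw [pow_zero, pow_zero, inc_one]
  | succ m ih => rw [pow_succ, pow_succ, inc_mul, ih]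

theorem inc_surjective : Function.Surjective (inc (O := O) (A := A)) := inc_surj

/-- the reduction map as an `O`-linear map. -/
noncomputable def incL : A →ₗ[O] (IsLocalRing.ResidueField O) ⊗[O] A where
  toFun := inc
  map_add' := inc_add
  map_smul' r a := by
    rw [inc_smul, RingHom.id_apply]
    exact (algebraMap_smul (IsLocalRing.ResidueField O) r (inc a))

end aux

/-- piece `Push` (generic): push everything to `k ⊗ A` and apply `Corner`. -/
theorem push {O : Type*} [CommRing O] [IsLocalRing O] {A : Type*} [Ring A] [Algebra O A]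
    [Module.Finite O A] (hz : ZeroP O A) (e : A) (hec : ∀ x, e * x = x * e)
    (ι : A) (K : Submodule O A) (n : ℕ) (a b : Fin n → A) (hF : FullS O A e ι K n a b)
    (h2 : ∀ t : Fin 3 → (A →ₗ[O] IsLocalRing.ResidueField O),
      (∀ i, Form e (t i)) → Dep (fun i x => t i x)) :
    1 ≤ Module.finrank (IsLocalRing.ResidueField O) (LinearMap.range
        (cmap (IsLocalRing.ResidueField O) ((1 : IsLocalRing.ResidueField O) ⊗ₜ[O] ι))) ∧
    Module.finrank (IsLocalRing.ResidueField O) (LinearMap.range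
        (cmap (IsLocalRing.ResidueField O) ((1 : IsLocalRing.ResidueField O) ⊗ₜ[O] ι))) ≤ 2 := by
  classical
  change 1 ≤ Module.finrank (IsLocalRing.ResidueField O) (LinearMap.range
        (cmap (IsLocalRing.ResidueField O) (inc (O := O) ι))) ∧
    Module.finrank (IsLocalRing.ResidueField O) (LinearMap.range
        (cmap (IsLocalRing.ResidueField O) (inc (O := O) ι))) ≤ 2
  have hιι : inc (O := O) ι * inc ι = inc ι := by rw [← inc_mul, hF.idem]
  constructor
  · rw [Nat.succ_le_iff, Module.finrank_pos_iff_exists_ne_zero]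
    refine ⟨⟨inc ι, ⟨inc ι, ?_⟩⟩, ?_⟩
    · rw [cmap_apply, hιι, hιι]
    · intro h0
      have h1 : inc (O := O) ι = 0 := congrArg Subtype.val h0
      have h3 : ι ∈ mA O A := (inc_eq_zero ι).1 h1
      exact hF.ne (hz ι hF.idem ⟨1, by rwa [pow_one]⟩)
  · -- the nil part
    let N : Submodule (IsLocalRing.ResidueField O) ((IsLocalRing.ResidueField O) ⊗[O] A) :=
      { carrier := {y | ∃ x ∈ K, inc x = y}
        add_mem' := by
          rintro _ _ ⟨x, hx, rfl⟩ ⟨y, hy, rfl⟩
          exact ⟨x + y, K.add_mem hx hy, inc_add x y⟩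
        zero_mem' := ⟨0, K.zero_mem, inc_zero⟩
        smul_mem' := by
          rintro c _ ⟨x, hx, rfl⟩
          obtain ⟨r, rfl⟩ := IsLocalRing.residue_surjective c
          exact ⟨r • x, K.smul_mem r hx, inc_smul r x⟩ }
    apply H4BrCorner.corner (inc e) (inc ι) ?_ hιι ?_ n (fun j => inc (a j)) (fun j => inc (b j)) ?_ N
      ?_ ?_ ?_ ?_ ?_
    · intro x
      obtain ⟨x', rfl⟩ := inc_surjective x
      rw [← inc_mul, ← inc_mul, hec]
    · rw [← inc_mul, hF.ie]
    · simp only [← inc_mul, ← inc_sum, hF.sum]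
    · rintro _ ⟨x, hx, rfl⟩
      rw [← inc_mul, ← inc_mul, (hF.corner x hx).1, (hF.corner x hx).2]
      exact ⟨rfl, rfl⟩
    · rintro _ ⟨x, hx, rfl⟩ _ ⟨y, hy, rfl⟩
      exact ⟨x * y, hF.mul x hx y hy, inc_mul x y⟩
    · rintro _ ⟨x, hx, rfl⟩
      obtain ⟨m, hm⟩ := hF.tn x hx
      exact ⟨m, by rw [← inc_pow]; exact (inc_eq_zero _).2 hm⟩
    · intro x
      obtain ⟨x', rfl⟩ := inc_surjective x
      obtain ⟨r, hr⟩ := hF.scal x'
      exact ⟨IsLocalRing.residue O r, _, hr, by rw [inc_sub, inc_mul, inc_mul, inc_smul]⟩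
    · intro f hf
      obtain ⟨c, hc, hc'⟩ := h2 (fun i => ((f i).restrictScalars O) ∘ₗ incL) (by
        intro i
        refine ⟨fun x y => ?_, fun x => ?_⟩
        · show f i (inc (x * y)) = f i (inc (y * x))
          rw [inc_mul, inc_mul, (hf i).1]
        · show f i (inc (e * x)) = f i (inc x)
          rw [inc_mul, (hf i).2])
      refine ⟨c, hc, fun x => ?_⟩
      obtain ⟨x', rfl⟩ := inc_surjective x
      exact hc' x'

end Cfsg.Agent.Lib.H4BrPush
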