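import Mathlib
import Cfsg.Agent.Lib.H4BrDefs

set_option autoImplicit false

namespace Cfsg.Agent.Lib.H4BrTrB

open Cfsg.Agent.Lib.H4BrDefs
open scoped TensorProduct

theorem trace_cmap {k R : Type*} [Field k] [Ring R] [Algebra k R] [Module.Finite k R] (j : R)
    (hj : j * j = j) :
    LinearMap.trace k R (cmap k j) = ((Module.finrank k (LinearMap.range (cmap k j)) : ℕ) : k) := by
  have hp : LinearMap.IsProj (LinearMap.range (cmap k j)) (cmap k j) := by
    refine ⟨fun x => LinearMap.mem_range_self _ x, ?_⟩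
    rintro _ ⟨y, rfl⟩
    simp only [cmap_apply]
    calc j * (j * y * j) * j = (j * j) * y * (j * j) := by simp only [mul_assoc]
      _ = j * y * j := by rw [hj]
  exact hp.trace

theorem baseChange_cmap {O : Type*} [CommRing O] {A : Type*} [Ring A] [Algebra O A]
    (k : Type*) [Field k] [Algebra O k] (ι : A) :
    (cmap O ι).baseChange k = cmap k ((1 : k) ⊗ₜ[O] ι) := by
  apply TensorProduct.AlgebraTensorModule.ext
  intro c x
  simp only [LinearMap.baseChange_tmul, cmap_apply, Algebra.TensorProduct.tmul_mul_tmul, one_mul,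
    mul_one]

/-- piece `TrB` (generic, PURE MATHLIB): the trace of `a ↦ ι a ι` reduces to the dimension of the corner of the
reduction. -/
theorem trB {O : Type*} [CommRing O] [IsLocalRing O] {A : Type*} [Ring A] [Algebra O A]
    [Module.Free O A] [Module.Finite O A] (ι : A) (hι : ι * ι = ι) :
    IsLocalRing.residue O (LinearMap.trace O A (cmap O ι)) =
      ((Module.finrank (IsLocalRing.ResidueField O) (LinearMap.range
        (cmap (IsLocalRing.ResidueField O)
          ((1 : IsLocalRing.ResidueField O) ⊗ₜ[O] ι))) : ℕ) : IsLocalRing.ResidueField O) := by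
  have h1 := LinearMap.trace_baseChange (cmap O ι) (IsLocalRing.ResidueField O)
  rw [baseChange_cmap] at h1
  have hj : ((1 : IsLocalRing.ResidueField O) ⊗ₜ[O] ι) * ((1 : IsLocalRing.ResidueField O) ⊗ₜ[O] ι)
      = (1 : IsLocalRing.ResidueField O) ⊗ₜ[O] ι := by
    rw [Algebra.TensorProduct.tmul_mul_tmul, one_mul, hι]
  rw [trace_cmap _ hj] at h1
  rw [h1]
  rfl

end Cfsg.Agent.Lib.H4BrTrB
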