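import Mathlib
import Cfsg.Agent.Lib.H4BrDefs
import Cfsg.Agent.Lib.H4BrOneBlk
import Cfsg.Agent.Lib.H4BrFull
import Cfsg.Agent.Lib.H4BrTrB
import Cfsg.Agent.Lib.H4BrPush
import Cfsg.Agent.Lib.Helper80StarA

set_option autoImplicit false

namespace Cfsg.Agent.Lib.H4BrRing

open Cfsg.Agent.Lib.H4BrDefs Cfsg.Agent.Lib.Helper80IdemDefs

/-- the ring theoretic part of Brandt's theorem. -/
theorem ring {O : Type*} [CommRing O] [IsLocalRing O] {A : Type*} [Ring A] [Algebra O A]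
    [Module.Free O A] [Module.Finite O A] (hO : HS O) (e : A) (hec : ∀ x, e * x = x * e)
    (he : e * e = e) (he0 : e ≠ 0)
    (h1 : ∀ t : Fin 2 → (A →ₗ[O] IsLocalRing.ResidueField O),
      (∀ i, Form e (t i) ∧ ∀ x, TN O A x → t i x = 0) → Dep (fun i x => t i x))
    (h2 : ∀ t : Fin 3 → (A →ₗ[O] IsLocalRing.ResidueField O),
      (∀ i, Form e (t i)) → Dep (fun i x => t i x)) :
    ∃ (ι : A) (m : ℕ), ι * ι = ι ∧ ι * e = ι ∧ 1 ≤ m ∧ m ≤ 2 ∧
      IsLocalRing.residue O (LinearMap.trace O A (cmap O ι)) = (m : IsLocalRing.ResidueField O) := by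
  obtain ⟨d, hd, π, hs, hsm, hπe, hker⟩ := H4BrOneBlk.oneBlk (Helper7StarWED.wedP hO)
    Helper80StarA.zeroP e hec he he0 h1
  obtain ⟨ι, K, n, a, b, hF⟩ := H4BrFull.full (Helper80StarA.liftP hO) Helper80StarA.unitP e hec he
    d hd π hs hsm hπe hker
  obtain ⟨h3, h4⟩ := H4BrPush.push Helper80StarA.zeroP e hec ι K n a b hF h2
  exact ⟨ι, _, hF.idem, hF.ie, h3, h4, H4BrTrB.trB ι hF.idem⟩

end Cfsg.Agent.Lib.H4BrRing
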