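import Mathlib
import Cfsg.Agent.Lib.H4BrGDefs
import Cfsg.Agent.Lib.Helper84StarF1
import Cfsg.Agent.Lib.Helper77Glaub

set_option autoImplicit false

namespace Cfsg.Agent.Lib.H4BrTraceChar

open Cfsg Cfsg.Agent.Lib.Helper80StarDefs Cfsg.Agent.Lib.H4BrGDefs Cfsg.Agent.Lib.Helper81Local
open Cfsg.Agent.Lib.H4BrDefs Cfsg.Agent.Lib.Helper4Char

variable {G : Type*} [Group G] [Fintype G] {M : Ideal AlgInt} [M.IsPrime]

/-- piece `TraceChar`: the trace of `a ↦ ι a ι` on `O G` is `∑_χ χ(ι)²`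
(`Helper84StarF1.trace_eq` + column orthogonality + `χ ↦ conj χ`). -/
theorem trace_char (ι : OA M G) :
    ((LinearMap.trace (Rt M) (OA M G) (cmap (Rt M) ι) : Rt M) : ℂ)
      = ∑ χ : IrrCharacter G, (evA (χ : G → ℂ) ι) ^ 2 := by
  classical
  rw [Cfsg.Agent.Lib.Helper84StarF1.trace_eq]
  have hL : ∀ g, fn (cmap (Rt M) ι (Cfsg.Agent.Lib.Helper84StarF1.bas M G g)) g
      = ∑ x, fn ι x * fn ι (g⁻¹ * x⁻¹ * g) := by
    intro g
    rw [cmap_apply, mul_assoc, fn_mul]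
    unfold Cfsg.Agent.Lib.Helper20Center.conv
    apply Finset.sum_congr rfl
    intro x _
    congr 1
    rw [fn_mul, Cfsg.Agent.Lib.Helper84StarF1.fn_bas]
    exact (Cfsg.Agent.Lib.Helper20GA.pt_mul_apply g (fn ι) (x⁻¹ * g)).trans (by rw [mul_assoc])
  simp_rw [hL]
  have hχ : ∀ x y : G, ∑ χ : IrrCharacter G, (χ : G → ℂ) x * (χ : G → ℂ) y
      = ∑ g : G, if g * x * g⁻¹ = y⁻¹ then (1 : ℂ) else 0 := by
    intro x y
    rw [← Cfsg.Agent.Lib.Helper77Glaub.col_orth_count]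
    apply Finset.sum_congr rfl
    intro χ _
    rw [← Cfsg.Agent.Lib.Helper4Char2.IsCharacter.apply_inv
      (IsIrrCharacter.isCharacter χ.2), inv_inv]
  have hR : ∑ χ : IrrCharacter G, (evA (χ : G → ℂ) ι) ^ 2
      = ∑ x, ∑ y, fn ι x * fn ι y * ∑ χ : IrrCharacter G, (χ : G → ℂ) x * (χ : G → ℂ) y := by
    have h1 : ∀ χ : IrrCharacter G, (evA (χ : G → ℂ) ι) ^ 2
        = ∑ x, ∑ y, fn ι x * fn ι y * ((χ : G → ℂ) x * (χ : G → ℂ) y) := by
      intro χ
      rw [sq, evA, Finset.sum_mul_sum]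
      apply Finset.sum_congr rfl
      intro x _
      apply Finset.sum_congr rfl
      intro y _
      ring
    simp_rw [h1, Finset.mul_sum]
    rw [Finset.sum_comm]
    apply Finset.sum_congr rfl
    intro x _
    rw [Finset.sum_comm]
  rw [hR]
  simp_rw [hχ]
  rw [← Equiv.sum_comp (Equiv.inv G), Finset.sum_comm]
  apply Finset.sum_congr rfl
  intro x _
  simp only [Finset.mul_sum]
  rw [Finset.sum_comm]
  apply Finset.sum_congr rfl
  intro g _
  rw [Finset.sum_eq_single (g * x⁻¹ * g⁻¹)]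
  · simp [mul_assoc]
  · intro y _ hy
    rw [if_neg, mul_zero]
    intro h
    apply hy
    rw [← inv_inj, ← h]
    group
  · intro h
    exact absurd (Finset.mem_univ _) h

end Cfsg.Agent.Lib.H4BrTraceChar
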