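import Mathlib
import Cfsg.Agent.Lib.H4SmDefs
import Cfsg.Agent.S2431
import Cfsg.Agent.S4477
import Cfsg.Agent.Lib.H4SmCntS
import Cfsg.Agent.Lib.H4SmInv1
import Cfsg.Agent.Lib.H4SmNonCyc
import Cfsg.Agent.Lib.H4SmCongr

/-!
# Project 2436 (row S2436, McKay equality for SL₂(q), q odd), piece `TwoA`
-/

set_option autoImplicit false
set_option linter.unusedSectionVars false

namespace Cfsg.Agent.Lib.H4SmTwoA

open Cfsg Subgroup Cfsg.Agent.Lib.H4SmDefs

/-- (25m) `(S2431.result hodd S).2.1 h : normalizer S = S`; `H4SmCongr.cnt_congr 2 (MulEquiv.subgroupCongr this)`; `H4SmCntS.cnt_two_group S.isPGroup'`; `S4477.result S.isPGroup' (by rw [H4SmInv1.card_invol hodd S])`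
gives cyclic (excluded by `H4SmNonCyc.not_cyclic`) or index `4`. -/
theorem cnt_two_A {F : Type*} [Field F] [Fintype F] (hodd : Odd (Fintype.card F))
    (h : Fintype.card F % 8 = 1 ∨ Fintype.card F % 8 = 7) (S : Sylow 2 (GG F)) :
    cnt 2 (normalizer ((S : Subgroup (GG F)) : Set (GG F))) = 4 := by
  have hN : normalizer ((S : Subgroup (GG F)) : Set (GG F)) = (S : Subgroup (GG F)) :=
    (Cfsg.Agent.S2431.result hodd S).2.1 h
  rw [H4SmCongr.cnt_congr 2 (MulEquiv.subgroupCongr hN), H4SmCntS.cnt_two_group S.isPGroup']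
  rcases Cfsg.Agent.S4477.result S.isPGroup' (by rw [H4SmInv1.card_invol hodd S]) with hc | hc
  · exact absurd hc (H4SmNonCyc.not_cyclic hodd S)
  · exact hc

end Cfsg.Agent.Lib.H4SmTwoA
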