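import Mathlib
import Cfsg.Agent.Lib.H4SmDefs
import Cfsg.Agent.Lib.H4SmTop
import Cfsg.Agent.Lib.H4SmSplit
import Cfsg.Agent.Lib.H4SmArP
import Cfsg.Agent.Lib.H4SmAr2
import Cfsg.Agent.Lib.H4SmArM
import Cfsg.Agent.Lib.H4SmArL
import Cfsg.Agent.Lib.H4SmKOdd
import Cfsg.Agent.Lib.H4SmCntOdd
import Cfsg.Agent.Lib.H4SmCntP
import Cfsg.Agent.Lib.H4SmTwoA
import Cfsg.Agent.Lib.H4SmTwoB
import Cfsg.Agent.Lib.H4SmBot
import Cfsg.Agent.Lib.H4SmQ3
import Cfsg.Agent.Lib.H4SmDvd
import Cfsg.Agent.Lib.H4McIto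
import Cfsg.Agent.S4502

/-!
# Project 2436: assembly (McKay equality for `SL₂(q)`, `q` odd)
-/

set_option autoImplicit false
set_option linter.unusedSectionVars false

namespace Cfsg.Agent.Lib.H4SmMain

open Cfsg Subgroup Cfsg.Agent.Lib.H4SmDefs

theorem odd_case {F : Type*} [Field F] [Fintype F] (hodd : Odd (Fintype.card F)) (ℓ : ℕ) [Fact ℓ.Prime]
    (hℓ : ℓ ≠ 2) (S : Sylow ℓ (GG F)) (m : ℕ)
    (hm : m = Fintype.card F - 1 ∨ m = Fintype.card F + 1) (hℓm : ℓ ∣ m) (h5 : 5 ≤ Fintype.card F) :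
    cnt ℓ (GG F) = cnt ℓ (normalizer ((S : Subgroup (GG F)) : Set (GG F))) := by
  have hp : ℓ.Prime := Fact.out
  rw [H4SmCntOdd.cnt_odd hodd ℓ hℓ S m hm hℓm, H4SmSplit.cnt_split hodd h5 ℓ]
  have h1 := H4SmKOdd.k_odd hodd ℓ hℓ S m hm hℓm
  have h2 : 2 * Fq (Fintype.card F) ℓ = m + 6 := by
    rcases hm with rfl | rfl
    · exact H4SmArM.arM _ ℓ hp hℓ hodd h5 hℓm
    · exact H4SmArL.arL _ ℓ hp hℓ hodd h5 hℓm
  omega

theorem main {F : Type*} [Field F] [Fintype F] (hodd : Odd (Fintype.card F)) (ℓ : ℕ) [Fact ℓ.Prime]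
    (S : Sylow ℓ (GG F)) :
    cnt ℓ (GG F) = cnt ℓ (normalizer ((S : Subgroup (GG F)) : Set (GG F))) := by
  have hp : ℓ.Prime := Fact.out
  have hq1 : 1 < Fintype.card F := Fintype.one_lt_card
  have hq : Fintype.card F = 3 ∨ 5 ≤ Fintype.card F := by
    obtain ⟨k, hk⟩ := hodd
    omega
  by_cases hdvd : ℓ ∣ Nat.card (GG F)
  swap
  · exact H4SmTop.of_top ℓ _ (H4SmBot.normalizer_eq_top ℓ hdvd S)
  by_cases h2 : ℓ = 2
  · subst h2
    rcases hq with h3 | h5
    · exact H4SmTop.of_top 2 _ (H4SmQ3.normalizer_eq_top h3 S)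
    · rw [H4SmSplit.cnt_split hodd h5 2, H4SmAr2.ar2 _ hodd h5]
      have h8 : (Fintype.card F % 8 = 1 ∨ Fintype.card F % 8 = 7) ∨
          (Fintype.card F % 8 = 3 ∨ Fintype.card F % 8 = 5) := by
        obtain ⟨k, hk⟩ := hodd
        omega
      rcases h8 with h | h
      · exact (H4SmTwoA.cnt_two_A hodd h S).symm
      · exact (H4SmTwoB.cnt_two_B hodd h S).symm
  · rcases H4SmDvd.dvd_cases ℓ hp hdvd with h | h | h
    · rcases hq with h3 | h5
      · -- `q = 3`, `ℓ = 3`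
        have hl3 : ℓ = 3 := by
          rw [h3] at h
          exact (Nat.prime_dvd_prime_iff_eq hp Nat.prime_three).1 h
        subst hl3
        have hcard : Nat.card (GG F) = 24 := by
          rw [H4SmDvd.card_GG, h3]; norm_num
        have hsq : ¬ 3 ^ 2 ∣ Nat.card (GG F) := by
          rw [hcard]; decide
        have hS : Nat.card S = 3 := by
          rw [Sylow.card_eq_multiplicity, hcard]
          have : (24 : ℕ).factorization 3 = 1 := by
            have h24 : (24 : ℕ) = 3 ^ 1 * 8 := by norm_num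
            rw [h24, Nat.factorization_mul (by norm_num) (by norm_num),
              Nat.Prime.factorization_pow Nat.prime_three]
            simp [Nat.factorization_eq_zero_of_not_dvd (show ¬ 3 ∣ 8 by decide)]
          rw [this, pow_one]
        have e1 := Cfsg.Agent.S4502.result 3 hdvd hsq S
        have : Fintype (GG F) := Fintype.ofFinite _
        have e2 := H4McIto.card_irr_normalizer (P := S) hS
        exact e1.trans e2.symm
      · rw [H4SmSplit.cnt_split hodd h5 ℓ, H4SmArP.arP _ ℓ hp hodd h5 h,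
          H4SmCntP.cnt_p hodd ℓ h S]
    · rcases hq with h3 | h5
      · exfalso
        rw [h3] at h
        exact h2 ((Nat.prime_dvd_prime_iff_eq hp Nat.prime_two).1 h)
      · exact odd_case hodd ℓ h2 S _ (Or.inl rfl) h h5
    · rcases hq with h3 | h5
      · exfalso
        rw [h3] at h
        have : ℓ ∣ 2 ^ 2 := by simpa using h
        exact h2 ((Nat.prime_dvd_prime_iff_eq hp Nat.prime_two).1 (hp.dvd_of_dvd_pow this))
      · exact odd_case hodd ℓ h2 S _ (Or.inr rfl) h h5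

end Cfsg.Agent.Lib.H4SmMain
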