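import Cfsg.Agent.Lib.H53MLNil

set_option autoImplicit false

/-! Project 53 (S1481), piece `AxB`: Thompson's `A × B` lemma in `F(H)`. -/

namespace Cfsg.Agent.Lib.H53MLAxB

open Subgroup Cfsg Cfsg.Agent.Lib.Helper30Bender Cfsg.Agent.Lib.H53MLNil

variable {G : Type*} [Group G]

/-- `Cfsg.Agent.S0028.result r (pCoreOf r M) D E`.  `pCoreOf r M` is an `r`-group `≤ M` (`Helper53Syl.pCoreOf_isPGroup`, `pCoreOf_le`), centralized by `D`
(`hDM`), and normalizes `E` (`M ≤ F ≤ H ≤ N(E)`).  Hypothesis `hC`: `x ∈ E` centralizing `pCoreOf r M`: `E ≤ fittingOf H` (`le_fittingOf`, `hE.isNilpotent`),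
`x` has order `r ^ k`, so `x ∈ C(M)` (`H53MLNil.mem_centralizer_of_pCoreOf`), so `x ∈ F ⊓ C(M) ≤ M`, which `D` centralizes. -/
theorem le_centralizer_normal [Finite G] {H M D E : Subgroup G} (hM : M ≤ fittingOf H)
    (hCM : fittingOf H ⊓ centralizer (M : Set G) ≤ M) {r : ℕ} [Fact r.Prime] (hDH : D ≤ H)
    (hDM : D ≤ centralizer (M : Set G)) (hDr : (Nat.card D).Coprime r) (hEH : E ≤ H)
    (hE : IsPGroup r E) (hHE : H ≤ normalizer (E : Set G)) : D ≤ centralizer (E : Set G) := by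
  have hMH : M ≤ H := hM.trans (fittingOf_le H)
  have hEF : E ≤ fittingOf H := le_fittingOf hEH hHE hE.isNilpotent
  apply Cfsg.Agent.S0028.result r (pCoreOf r M) D E (Cfsg.Agent.Lib.Helper53Syl.pCoreOf_isPGroup M)
    hDr hE
  · exact (Cfsg.Agent.Lib.Helper53Syl.pCoreOf_le M).trans (le_centralizer_iff.1 hDM)
  · exact ((Cfsg.Agent.Lib.Helper53Syl.pCoreOf_le M).trans hMH).trans hHE
  · exact hDH.trans hHE
  · rintro x ⟨hxE, hxC⟩
    obtain ⟨k, hk⟩ := (IsPGroup.iff_orderOf.1 hE) ⟨x, hxE⟩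
    rw [Subgroup.orderOf_mk] at hk
    have h1 : x ∈ centralizer (M : Set G) :=
      mem_centralizer_of_pCoreOf (fittingOf_isNilpotent H) hM (hEF hxE) hk hxC
    exact (le_centralizer_iff.1 hDM) (hCM ⟨hEF hxE, h1⟩)

end Cfsg.Agent.Lib.H53MLAxB
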