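import Cfsg.Agent.Lib.H53MLFix

set_option autoImplicit false

/-! Project 53 (S1481), piece `CK`: `C_K(M) = 1` for `K = O_{π'}(R)`. -/

namespace Cfsg.Agent.Lib.H53MLCK

open Subgroup Cfsg Cfsg.Agent.Lib.Helper30Bender Cfsg.Agent.Lib.Helper30Trans

variable {G : Type*} [Group G]

/-- Suppose `x ≠ 1` in `K ⊓ C(M)`, `K := piCoreOf (primesNotDvd |F|) R`.  Take a prime `q' ∣ orderOf x` (`Nat.exists_prime_and_dvd`, `orderOf x ≠ 1`) and `y := x ^ (orderOf x / q')`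
of order `q'` (`orderOf_pow_orderOf_div`).  `q' ∣ |K|` so `q' ∤ |F|` (`Helper30Trans.card_piCoreOf`).  `Q' := zpowers y ≤ K ≤ R` is a `q'`-group (`IsPGroup.of_card`, `Nat.card_zpowers`),
centralized, hence normalized, by `M`.  Pick a prime `p ∣ |F|` (from `hF2`, e.g. `exists_other_prime hF2 0`).  `H53MLFix.fix_eq_bot` gives `Q' ⊓ C(pCoreOf p M) = ⊥`, but `y ∈ C(M) ≤ C(pCoreOf p M)`. -/
theorem core_inf_centralizer_eq_bot [Finite G] {H M R : Subgroup G}
    (hHmax : ∀ L : Subgroup G, IsLocalSubgroup L → H ≤ L → L = H)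
    (hF2 : 2 ≤ (Nat.card (fittingOf H)).primeFactors.card) (hM : M ≤ fittingOf H)
    (hCM : fittingOf H ⊓ centralizer (M : Set G) ≤ M) (hR : Group.IsSolvable R)
    (hXR : H ⊓ centralizer (fittingOf H : Set G) ≤ normalizer (R : Set G)) :
    piCoreOf (primesNotDvd (Nat.card (fittingOf H))) R ⊓ centralizer (M : Set G) = ⊥ := by
  set K := piCoreOf (primesNotDvd (Nat.card (fittingOf H))) R with hK
  rw [eq_bot_iff]
  rintro x ⟨hxK, hxM⟩
  rw [mem_bot]
  by_contra hx1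
  have hox : orderOf x ≠ 1 := fun h => hx1 (orderOf_eq_one_iff.1 h)
  obtain ⟨q', hq', hdvd⟩ := Nat.exists_prime_and_dvd hox
  have : Fact q'.Prime := ⟨hq'⟩
  set y := x ^ (orderOf x / q') with hy
  have hyo : orderOf y = q' := orderOf_pow_orderOf_div (orderOf_pos x).ne' hdvd
  have hyK : y ∈ K := K.pow_mem hxK _
  have hyM : y ∈ centralizer (M : Set G) := Subgroup.pow_mem _ hxM _
  have hq'K : q' ∣ Nat.card K := hyo ▸ Subgroup.orderOf_dvd_natCard K hyK
  have hq'F : ¬ q' ∣ Nat.card (fittingOf H) := (card_piCoreOf _ R q' hq' hq'K).2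
  obtain ⟨p, hp, -, hpF⟩ := exists_other_prime hF2 0
  have : Fact p.Prime := ⟨hp⟩
  have hQ' : IsPGroup q' (zpowers y) := IsPGroup.of_card (n := 1) (by rw [Nat.card_zpowers, hyo, pow_one])
  have hMC : M ≤ centralizer ((zpowers y : Subgroup G) : Set G) := by
    rw [le_centralizer_iff, zpowers_le]
    exact hyM
  have h1 := Cfsg.Agent.Lib.H53MLFix.fix_eq_bot hHmax hM hCM hR hXR hq'F hpF
    (Q := zpowers y) (zpowers_le.2 (piCoreOf_le _ R hyK)) hQ'
    (hMC.trans (Cfsg.Agent.Lib.Helper53Rel.centralizer_le_normalizer' _))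
  have h2 : y ∈ zpowers y ⊓ centralizer (pCoreOf p M : Set G) :=
    ⟨mem_zpowers y, centralizer_le (Cfsg.Agent.Lib.Helper53Syl.pCoreOf_le M) hyM⟩
  rw [h1, mem_bot] at h2
  rw [h2, orderOf_one] at hyo
  exact hq'.one_lt.ne hyo

end Cfsg.Agent.Lib.H53MLCK
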