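import Cfsg.Agent.Lib.Helper30Bender
import Cfsg.Agent.Lib.Helper53Syl

set_option autoImplicit false

/-! Project 53 (S1481), piece `Nil`: nilpotent subgroups of an ambient group. -/

namespace Cfsg.Agent.Lib.H53MLNil

open Subgroup Cfsg

variable {G : Type*} [Group G]

/-- `Subgroup.inclusion h` is injective; `Group.isNilpotent_of_injective` (or whatever its current name is). -/
theorem isNilpotent_of_le {M F : Subgroup G} (hF : Group.IsNilpotent F) (h : M ≤ F) :
    Group.IsNilpotent M := by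
  have h1 : Group.IsNilpotent (M.subgroupOf F) := inferInstance
  exact (Group.isNilpotent_congr (subgroupOfEquivOfLe h)).mp h1

/-- `Cfsg.Agent.Lib.Helper31Nilpotent.coprime_commute F ⟨x,hx⟩ ⟨y,hy⟩` (`Subgroup.orderOf_mk`). -/
theorem commute_of_coprime {F : Subgroup G} (hF : Group.IsNilpotent F) {x y : G} (hx : x ∈ F)
    (hy : y ∈ F) (h : (orderOf x).Coprime (orderOf y)) : x * y = y * x := by
  have := Cfsg.Agent.Lib.Helper31Nilpotent.coprime_commute F ⟨x, hx⟩ ⟨y, hy⟩
    (by rwa [Subgroup.orderOf_mk, Subgroup.orderOf_mk])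
  exact congrArg Subtype.val this

/-- In the type `↥M` (nilpotent, finite) take `P : Sylow p M`; `⟨x,hx⟩ ∈ P` by
`Cfsg.Agent.Lib.Helper31Nilpotent.mem_sylow_of_orderOf`; `P` is normal (instance for nilpotent groups, see the proof of
`mem_sylow_of_orderOf`) and a `p`-group, so `P ≤ pCore p M` (`Cfsg.Agent.Lib.Helper53Basic.le_pCore`); `pCoreOf p M = (pCore p M).map M.subtype`. -/
theorem mem_pCoreOf [Finite G] {p : ℕ} [Fact p.Prime] {M : Subgroup G} (hM : Group.IsNilpotent M)
    {x : G} (hx : x ∈ M) {k : ℕ} (hk : orderOf x = p ^ k) : x ∈ pCoreOf p M := by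
  obtain ⟨P⟩ : Nonempty (Sylow p M) := inferInstance
  have h1 : (⟨x, hx⟩ : M) ∈ P :=
    Cfsg.Agent.Lib.Helper31Nilpotent.mem_sylow_of_orderOf P ⟨x, hx⟩ (k := k)
      (by rw [Subgroup.orderOf_mk]; exact hk)
  have h2 : (P : Subgroup M) ≤ pCore p M :=
    Cfsg.Agent.Lib.Helper53Basic.le_pCore inferInstance P.2
  exact ⟨⟨x, hx⟩, h2 h1, rfl⟩

/-- For `m ∈ M`: `Cfsg.Agent.Lib.Helper31Nilpotent.exists_order_split p m` gives `k' m'` with `m ^ m'` of order `p ^ k'` (so in `pCoreOf p M` by
`mem_pCoreOf`, commutes with `x` by `hc`) and `m ^ (p ^ k')` of order `m'` prime to `p` (commutes with `x` by `commute_of_coprime` in `F`).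
So both powers lie in `centralizer {x}`, and `Helper31Nilpotent.mem_of_coprime_pow` gives `m ∈ centralizer {x}`. -/
theorem mem_centralizer_of_pCoreOf [Finite G] {p : ℕ} [Fact p.Prime] {M F : Subgroup G}
    (hF : Group.IsNilpotent F) (hMF : M ≤ F) {x : G} (hx : x ∈ F) {k : ℕ} (hk : orderOf x = p ^ k)
    (hc : x ∈ centralizer (pCoreOf p M : Set G)) : x ∈ centralizer (M : Set G) := by
  have hM : Group.IsNilpotent M := isNilpotent_of_le hF hMF
  rw [mem_centralizer_iff]
  intro m hm
  obtain ⟨k', m', hkm, h1, h2, hmp⟩ := Cfsg.Agent.Lib.Helper31Nilpotent.exists_order_split p m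
  have hmem : m ∈ centralizer ({x} : Set G) := by
    apply Cfsg.Agent.Lib.Helper31Nilpotent.mem_of_coprime_pow _ m hkm.symm
    · rw [mem_centralizer_singleton_iff]
      exact (mem_centralizer_iff.1 hc) _ (mem_pCoreOf hM (M.pow_mem hm _) h1)
    · rw [mem_centralizer_singleton_iff]
      apply commute_of_coprime hF (F.pow_mem (hMF hm) _) hx
      rw [h2, hk]
      exact Nat.Coprime.pow_right _ hmp
  exact mem_centralizer_singleton_iff.1 hmem

end Cfsg.Agent.Lib.H53MLNil
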