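import Cfsg.Agent.Lib.H53MLLoc
import Cfsg.Agent.Lib.H53MLNil
import Cfsg.Agent.Lib.H53MLBal
import Cfsg.Agent.Lib.Helper27Coprime

set_option autoImplicit false

/-! Project 53 (S1481), piece `Core`: `O_s(M) ≤ O_{p'}(RM)` for `p ≠ s`. -/

namespace Cfsg.Agent.Lib.H53MLCore

open Subgroup Cfsg Cfsg.Agent.Lib.Helper30Bender

variable {G : Type*} [Group G]

/-- `R` is normal in `R ⊔ M` with quotient an image of `M`.  (grep the Agent libs: `isSolvable_sup`, `solvable_sup`, `IsSolvable.sup`…; otherwise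
`Group.isSolvable_of_ker_le_range` with `R.subgroupOf (R ⊔ M)` and the quotient map, the quotient being the image of `M`.) -/
theorem isSolvable_sup {R M : Subgroup G} (hR : Group.IsSolvable R) (hM : Group.IsSolvable M)
    (hMR : M ≤ normalizer (R : Set G)) : Group.IsSolvable (R ⊔ M : Subgroup G) :=
  Cfsg.Agent.Lib.Helper27Coprime.isSolvable_sup hR hM hMR

/-- `F := fittingOf H`, `L := R ⊔ M` (solvable; `M ≤ F` is nilpotent), `P := zq F p` (`≤ pCoreOf p M ≤ M ≤ L` by `H53MLLoc.zq_le_pCoreOf`; a `p`-group), `N(P) = H` (`H53MLLoc.normalizer_zq_eq`),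
`Y := pCoreOf s F ⊓ L`: `Y ≤ F ≤ H = N(P)`; `|Y|` is a power of `s ≠ p`; `L ⊓ H ≤ N(Y)` (`H ≤ N(F) ≤ N(pCoreOf s F)`, `L ≤ N(L)`, `Helper53Rel.le_normalizer_inf`).
`H53MLBal.le_pPrimeCore_of_normalizer` gives `Y ≤ O_{p'}(L)`.  Finally `pCoreOf s M ≤ Y`: its elements are `s`-elements of `F`, so in `pCoreOf s F` by `H53MLNil.mem_pCoreOf`. -/
theorem pCoreOf_le_pPrimeCore [Finite G] {H M R : Subgroup G}
    (hHmax : ∀ L : Subgroup G, IsLocalSubgroup L → H ≤ L → L = H) (hM : M ≤ fittingOf H)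
    (hCM : fittingOf H ⊓ centralizer (M : Set G) ≤ M) (hR : Group.IsSolvable R)
    (hMR : M ≤ normalizer (R : Set G)) {p s : ℕ} [Fact p.Prime] [Fact s.Prime] (hps : p ≠ s)
    (hp : p ∣ Nat.card (fittingOf H)) :
    pCoreOf s M ≤ (pPrimeCore p ↥(R ⊔ M : Subgroup G)).map (R ⊔ M : Subgroup G).subtype := by
  set F := fittingOf H with hF
  have hFn : Group.IsNilpotent F := fittingOf_isNilpotent H
  have hMn : Group.IsNilpotent M := Cfsg.Agent.Lib.H53MLNil.isNilpotent_of_le hFn hM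
  have hMs : Group.IsSolvable M := inferInstance
  have hL : Group.IsSolvable (R ⊔ M : Subgroup G) := isSolvable_sup hR hMs hMR
  have hN : normalizer ((zq F p : Subgroup G) : Set G) = H :=
    Cfsg.Agent.Lib.H53MLLoc.normalizer_zq_eq hHmax hp
  have hPL : zq F p ≤ R ⊔ M :=
    ((Cfsg.Agent.Lib.H53MLLoc.zq_le_pCoreOf hM hCM p).trans
      (Cfsg.Agent.Lib.Helper53Syl.pCoreOf_le M)).trans le_sup_right
  have hYs : IsPGroup s ↥(pCoreOf s F ⊓ (R ⊔ M) : Subgroup G) :=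
    (Cfsg.Agent.Lib.Helper53Syl.pCoreOf_isPGroup F).to_inf_left
  have h1 : pCoreOf s F ⊓ (R ⊔ M) ≤
      (pPrimeCore p ↥(R ⊔ M : Subgroup G)).map (R ⊔ M : Subgroup G).subtype := by
    apply Cfsg.Agent.Lib.H53MLBal.le_pPrimeCore_of_normalizer hL hPL (isPGroup_zq F p) inf_le_right
    · rw [hN]
      exact (inf_le_left.trans (Cfsg.Agent.Lib.Helper53Syl.pCoreOf_le F)).trans (fittingOf_le H)
    · obtain ⟨n, hn⟩ := IsPGroup.iff_card.1 hYs
      rw [hn]
      exact Nat.Coprime.pow_left _ ((Nat.coprime_primes Fact.out Fact.out).2 (Ne.symm hps))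
    · rw [hN]
      apply Cfsg.Agent.Lib.Helper53Rel.le_normalizer_inf
      · exact (inf_le_right.trans (le_normalizer_fittingOf H)).trans
          (Cfsg.Agent.Lib.Helper53Syl.normalizer_le_normalizer_pCoreOf F)
      · exact inf_le_left.trans le_normalizer
  refine le_trans (le_inf ?_ ((Cfsg.Agent.Lib.Helper53Syl.pCoreOf_le M).trans le_sup_right)) h1
  intro x hx
  obtain ⟨k, hk⟩ := (IsPGroup.iff_orderOf.1 (Cfsg.Agent.Lib.Helper53Syl.pCoreOf_isPGroup (p := s) M))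
    ⟨x, hx⟩
  rw [Subgroup.orderOf_mk] at hk
  exact Cfsg.Agent.Lib.H53MLNil.mem_pCoreOf hFn (hM (Cfsg.Agent.Lib.Helper53Syl.pCoreOf_le M hx)) hk

end Cfsg.Agent.Lib.H53MLCore
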