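import Cfsg.Agent.Lib.H53MLInK
import Cfsg.Agent.Lib.H53MLCK
import Cfsg.Agent.Lib.Helper30Over

set_option autoImplicit false

/-! Project 53 (S1481), piece `Fin`: the unique maximal `M`-invariant `q`-subgroup. -/

namespace Cfsg.Agent.Lib.H53MLFin

open Subgroup Cfsg Cfsg.Agent.Lib.Helper30Bender Cfsg.Agent.Lib.Helper30Trans

variable {G : Type*} [Group G]

/-- abstract coprime-action statement.  `S0025` with `U = ⊥` gives an `A`-invariant Sylow `P₀` of `K`; for an `A`-invariant `q`-subgroup `Y ≤ K`, `S0025` gives an invariant Sylow `P₁ ⊇ Y`,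
`S0024` gives `c ∈ C_K(A) = 1` with `c • P₀ = P₁`, so `P₁ = P₀`.  `Helper53Syl.isSyl_of_sylow` for the index. -/
theorem exists_unique_invariant_sylow [Finite G] {A K : Subgroup G}
    (hAK : A ≤ normalizer (K : Set G)) (hcop : (Nat.card A).Coprime (Nat.card K))
    (hsolv : Group.IsSolvable A ∨ Group.IsSolvable K) (hfix : K ⊓ centralizer (A : Set G) = ⊥)
    (q : ℕ) [Fact q.Prime] :
    ∃ Q₀ : Subgroup G, Q₀ ≤ K ∧ IsPGroup q Q₀ ∧ A ≤ normalizer (Q₀ : Set G) ∧ ¬ q ∣ Q₀.relIndex K ∧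
      ∀ Y : Subgroup G, Y ≤ K → IsPGroup q Y → A ≤ normalizer (Y : Set G) → Y ≤ Q₀ := by
  obtain ⟨P₀, -, hP₀A⟩ := Cfsg.Agent.S0025.result A K hAK hcop hsolv q ⊥ bot_le IsPGroup.of_bot
    (by
      intro a _
      rw [mem_normalizer_iff]
      intro x
      simp [Subgroup.mem_bot])
  refine ⟨(P₀ : Subgroup K).map K.subtype, map_subtype_le _, P₀.2.map _, hP₀A,
    (Cfsg.Agent.Lib.Helper53Syl.isSyl_of_sylow P₀).2.2, ?_⟩
  intro Y hYK hY hAY
  obtain ⟨P₁, hYP₁, hP₁A⟩ := Cfsg.Agent.S0025.result A K hAK hcop hsolv q Y hYK hY hAY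
  obtain ⟨c, hcA, hc⟩ := Cfsg.Agent.S0024.result A K hAK hcop hsolv q P₀ P₁ hP₀A hP₁A
  have hc1 : c = 1 := by
    have h1 : (c : G) ∈ K ⊓ centralizer (A : Set G) := ⟨c.2, hcA⟩
    rw [hfix] at h1
    exact Subtype.ext h1
  rw [hc1, map_one, one_smul] at hc
  rw [hc]
  exact hYP₁

/-- the statement of S1481 (without the unused hypothesis that `H` is local). -/
theorem main [Finite G] (H : Subgroup G)
    (hHmax : ∀ L : Subgroup G, IsLocalSubgroup L → H ≤ L → L = H)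
    (hF2 : 2 ≤ (Nat.card (fittingOf H)).primeFactors.card)
    (M : Subgroup G) (hM : M ≤ fittingOf H) (hCM : fittingOf H ⊓ centralizer (M : Set G) ≤ M)
    (R : Subgroup G) (hR : Group.IsSolvable R) (hMR : M ≤ normalizer (R : Set G))
    (hXR : H ⊓ centralizer (fittingOf H : Set G) ≤ normalizer (R : Set G))
    (q : ℕ) [Fact q.Prime] (hq : ¬ q ∣ Nat.card (fittingOf H)) :
    ∃! Q : Subgroup G, Q ∈ maxInvSubgroups R M {q} ∧
      (∀ Q' : Subgroup G, Q' ∈ maxInvSubgroups R M {q} →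
        Q' ≤ piCoreOf (primesNotDvd (Nat.card (fittingOf H))) R ∧
        ¬ q ∣ Q'.relIndex (piCoreOf (primesNotDvd (Nat.card (fittingOf H))) R)) := by
  set K := piCoreOf (primesNotDvd (Nat.card (fittingOf H))) R with hK
  have hKR : K ≤ R := piCoreOf_le _ R
  have hMK : M ≤ normalizer (K : Set G) :=
    hMR.trans (Cfsg.Agent.Lib.Helper30Over.normalizer_le_normalizer_piCoreOf _ R)
  have hcop : (Nat.card M).Coprime (Nat.card K) :=
    Nat.Coprime.coprime_dvd_left (Subgroup.card_dvd_of_le hM)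
      (coprime_of_primesNotDvd (card_piCoreOf _ R))
  have hKs : Group.IsSolvable K :=
    Group.isSolvable_of_isSolvable_injective (Subgroup.inclusion_injective hKR)
  have hfix := Cfsg.Agent.Lib.H53MLCK.core_inf_centralizer_eq_bot hHmax hF2 hM hCM hR hXR
  obtain ⟨Q₀, hQ₀K, hQ₀q, hMQ₀, hidx, hmax⟩ :=
    exists_unique_invariant_sylow hMK hcop (Or.inr hKs) hfix q
  have key : ∀ Y ∈ invSubgroups R M {q}, Y ≤ Q₀ := by
    intro Y hY
    have hYq := isPGroup_of_mem_inv hY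
    exact hmax Y (Cfsg.Agent.Lib.H53MLInK.le_piCoreOf_of_inv hHmax hF2 hM hCM hR hMR hXR hq hY.1 hYq
      hY.2.2) hYq hY.2.2
  have hQ₀inv : Q₀ ∈ invSubgroups R M {q} := mem_inv_of_isPGroup (hQ₀K.trans hKR) hQ₀q hMQ₀
  have hQ₀max : Q₀ ∈ maxInvSubgroups R M {q} :=
    ⟨hQ₀inv, fun Y hY hle => le_antisymm (key Y hY) hle⟩
  have huniq : ∀ Q' ∈ maxInvSubgroups R M {q}, Q' = Q₀ := fun Q' hQ' =>
    (hQ'.2 Q₀ hQ₀inv (key Q' hQ'.1)).symm
  refine ⟨Q₀, ⟨hQ₀max, fun Q' hQ' => ?_⟩, fun Q' hQ' => huniq Q' hQ'.1⟩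
  rw [huniq Q' hQ']
  exact ⟨hQ₀K, hidx⟩

end Cfsg.Agent.Lib.H53MLFin
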