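import Cfsg.Agent.Lib.Helper30Bender
import Cfsg.Agent.Lib.Helper53Rel

set_option autoImplicit false

/-! Project 53 (S1481), piece `XR`: a solvable subgroup normalized by `X = C_H(F(H))` meets `X` inside `F(H)`. -/

namespace Cfsg.Agent.Lib.H53MLXR

open Subgroup Cfsg Cfsg.Agent.Lib.Helper30Bender

variable {G : Type*} [Group G]

/-- `fittingOf S` is characteristic in `S`: conjugation by `g ∈ N(S)` maps normal nilpotent subgroups of `S` to such.
E.g. show `(fittingOf S).map (conj g) ≤ fittingOf S` by `le_fittingOf` (image ≤ S, normalized by S, nilpotent as an isomorphic image),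
then finiteness (`Cfsg.Agent.Lib.Helper53Rel.cj_eq_of_le`, `cj_eq_iff_mem_normalizer`). -/
theorem normalizer_le_normalizer_fittingOf [Finite G] (S : Subgroup G) :
    normalizer (S : Set G) ≤ normalizer ((fittingOf S : Subgroup G) : Set G) := by
  intro g hg
  have hS : S.map (MulAut.conj g).toMonoidHom = S :=
    Cfsg.Agent.Lib.Helper53Rel.cj_eq_iff_mem_normalizer.2 hg
  rw [← Cfsg.Agent.Lib.Helper53Rel.cj_eq_iff_mem_normalizer]
  apply Cfsg.Agent.Lib.Helper53Rel.cj_eq_of_le
  apply le_fittingOf
  · have := Cfsg.Agent.Lib.Helper53Rel.cj_mono g (fittingOf_le S)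
    rwa [hS] at this
  · rw [Cfsg.Agent.Lib.Helper53Rel.normalizer_cj]
    have := Cfsg.Agent.Lib.Helper53Rel.cj_mono g (le_normalizer_fittingOf S)
    rwa [hS] at this
  · exact (Group.isNilpotent_congr ((fittingOf S).equivMapOfInjective _
      (MulAut.conj g).injective)).mp (fittingOf_isNilpotent S)

/-- `X := H ⊓ C(F)`, `F := fittingOf H`, `S := X ⊓ R` (solvable: subgroup of `R`; normalized by `X`).
`fittingOf S` is nilpotent, `≤ X`, normalized by `X` (previous lemma), so `≤ fittingOf X` (`le_fittingOf`).  `H ≤ N(X)` (`H ≤ N(H)`, `H ≤ N(F) ≤ N(C(F))`), so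
`fittingOf X` is nilpotent, `≤ H`, normalized by `H`: `fittingOf X ≤ F`.  Hence `S ≤ X ≤ C(F) ≤ C(fittingOf S)`, and
`inf_centralizer_fittingOf_le` (for the solvable `S`) gives `S ≤ fittingOf S ≤ F`. -/
theorem inf_le_fittingOf [Finite G] {H R : Subgroup G} (hR : Group.IsSolvable R)
    (hXR : H ⊓ centralizer (fittingOf H : Set G) ≤ normalizer (R : Set G)) :
    (H ⊓ centralizer (fittingOf H : Set G)) ⊓ R ≤ fittingOf H := by
  set X : Subgroup G := H ⊓ centralizer (fittingOf H : Set G) with hX
  set S : Subgroup G := X ⊓ R with hS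
  have hSs : Group.IsSolvable S :=
    Group.isSolvable_of_isSolvable_injective (Subgroup.inclusion_injective (inf_le_right : S ≤ R))
  have hXS : X ≤ normalizer (S : Set G) :=
    Cfsg.Agent.Lib.Helper53Rel.le_normalizer_inf le_normalizer hXR
  have h1 : fittingOf S ≤ fittingOf X :=
    le_fittingOf ((fittingOf_le S).trans inf_le_left)
      (hXS.trans (normalizer_le_normalizer_fittingOf S)) (fittingOf_isNilpotent S)
  have hHX : H ≤ normalizer (X : Set G) :=
    Cfsg.Agent.Lib.Helper53Rel.le_normalizer_inf le_normalizer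
      (Cfsg.Agent.Lib.Helper53Rel.le_normalizer_centralizer (le_normalizer_fittingOf H))
  have h2 : fittingOf X ≤ fittingOf H :=
    le_fittingOf ((fittingOf_le X).trans inf_le_left)
      (hHX.trans (normalizer_le_normalizer_fittingOf X)) (fittingOf_isNilpotent X)
  have h3 : S ≤ centralizer ((fittingOf S : Subgroup G) : Set G) :=
    ((inf_le_left : S ≤ X).trans inf_le_right).trans (centralizer_le (h1.trans h2))
  exact ((le_inf le_rfl h3).trans (inf_centralizer_fittingOf_le hSs)).trans (h1.trans h2)

end Cfsg.Agent.Lib.H53MLXR
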