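import Cfsg.Agent.Lib.H53MLLoc
import Cfsg.Agent.Lib.H53MLXR
import Cfsg.Agent.Lib.H53MLAxB

set_option autoImplicit false

/-! Project 53 (S1481), piece `Fix`: `C_Q(O_p(M)) = 1` for `M`-invariant `q`-subgroups `Q` of `R`. -/

namespace Cfsg.Agent.Lib.H53MLFix

open Subgroup Cfsg Cfsg.Agent.Lib.Helper30Bender

variable {G : Type*} [Group G]

/-- `F := fittingOf H`, `D := Q ⊓ C(pCoreOf p M)`.
1. `D ≤ H` (`H53MLLoc.centralizer_pCoreOf_le`).
2. `M ≤ N(D)`: `M ≤ N(Q)`, `M ≤ N(M) ≤ N(pCoreOf p M) ≤ N(C(pCoreOf p M))` (`Helper53Syl.normalizer_le_normalizer_pCoreOf`/`le_normalizer_pCoreOf`, `Helper53Rel.le_normalizer_centralizer`, `le_normalizer_inf`).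
3. For `d ∈ D`, `m ∈ M`: `d m d⁻¹ m⁻¹ ∈ D` (by 2) and `∈ F` (`d ∈ H ≤ N(F)`, `m ∈ F`); `D ⊓ F = ⊥` (`D` a `q`-group, `q ∤ |F|`:
   `eq_bot_of_isPGroup_of_not_dvd`).  So `D ≤ C(M)`.
4. `F ≤ C(D)` by `fittingOf_le_of_forall`: let `E ≤ H` be a normal `r`-subgroup.  If `r = q`: `E ≤ F` (`le_fittingOf`), so `E = ⊥`.  If `r ≠ q`: `H53MLAxB.le_centralizer_normal`
   gives `D ≤ C(E)` (`|D|` is a power of `q`), i.e. `E ≤ C(D)` (`le_centralizer_iff`).
5. `D ≤ (H ⊓ C(F)) ⊓ R ≤ F` (`H53MLXR.inf_le_fittingOf`), so `D ≤ D ⊓ F = ⊥`. -/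
theorem fix_eq_bot [Finite G] {H M R Q : Subgroup G}
    (hHmax : ∀ L : Subgroup G, IsLocalSubgroup L → H ≤ L → L = H) (hM : M ≤ fittingOf H)
    (hCM : fittingOf H ⊓ centralizer (M : Set G) ≤ M) (hR : Group.IsSolvable R)
    (hXR : H ⊓ centralizer (fittingOf H : Set G) ≤ normalizer (R : Set G))
    {q : ℕ} [Fact q.Prime] (hq : ¬ q ∣ Nat.card (fittingOf H)) {p : ℕ} [Fact p.Prime]
    (hp : p ∣ Nat.card (fittingOf H)) (hQR : Q ≤ R) (hQ : IsPGroup q Q)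
    (hMQ : M ≤ normalizer (Q : Set G)) : Q ⊓ centralizer (pCoreOf p M : Set G) = ⊥ := by
  set F := fittingOf H with hF
  set D : Subgroup G := Q ⊓ centralizer (pCoreOf p M : Set G) with hD
  have hDq : IsPGroup q D := hQ.to_inf_left
  have hDH : D ≤ H := inf_le_right.trans (Cfsg.Agent.Lib.H53MLLoc.centralizer_pCoreOf_le hHmax hM hCM hp)
  have hMD : M ≤ normalizer (D : Set G) :=
    Cfsg.Agent.Lib.Helper53Rel.le_normalizer_inf hMQ
      (Cfsg.Agent.Lib.Helper53Rel.le_normalizer_centralizer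
        (Cfsg.Agent.Lib.Helper53Syl.le_normalizer_pCoreOf M))
  have hDF : D ⊓ F = ⊥ := eq_bot_of_isPGroup_of_not_dvd hDq.to_inf_left inf_le_right hq
  have hDM : D ≤ centralizer (M : Set G) := by
    intro d hd
    rw [mem_centralizer_iff]
    intro m hm
    have h1 : d * m * d⁻¹ * m⁻¹ ∈ D := by
      have h2 : m * d⁻¹ * m⁻¹ ∈ D := (mem_normalizer_iff.1 (hMD hm) _).1 (D.inv_mem hd)
      have e : d * m * d⁻¹ * m⁻¹ = d * (m * d⁻¹ * m⁻¹) := by group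
      rw [e]
      exact D.mul_mem hd h2
    have h2 : d * m * d⁻¹ * m⁻¹ ∈ F :=
      F.mul_mem ((mem_normalizer_iff.1 (le_normalizer_fittingOf H (hDH hd)) m).1 (hM hm))
        (F.inv_mem (hM hm))
    have h3 : d * m * d⁻¹ * m⁻¹ ∈ D ⊓ F := ⟨h1, h2⟩
    rw [hDF, mem_bot] at h3
    calc m * d = (d * m * d⁻¹ * m⁻¹)⁻¹ * (d * m) := by group
      _ = d * m := by rw [h3]; group
  have hFD : F ≤ centralizer (D : Set G) := by
    apply fittingOf_le_of_forall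
    intro r hr E hEH hHE hE
    have : Fact r.Prime := ⟨hr⟩
    by_cases hrq : r = q
    · subst hrq
      have hEF : E ≤ F := le_fittingOf hEH hHE hE.isNilpotent
      rw [eq_bot_of_isPGroup_of_not_dvd hE hEF hq]
      exact bot_le
    · rw [le_centralizer_iff]
      apply Cfsg.Agent.Lib.H53MLAxB.le_centralizer_normal hM hCM hDH hDM _ hEH hE hHE
      obtain ⟨n, hn⟩ := IsPGroup.iff_card.1 hDq
      rw [hn]
      exact Nat.Coprime.pow_left _ ((Nat.coprime_primes Fact.out hr).2 (Ne.symm hrq))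
  have h4 : D ≤ F :=
    le_trans (le_inf (le_inf hDH (le_centralizer_iff.1 hFD)) (inf_le_left.trans hQR))
      (Cfsg.Agent.Lib.H53MLXR.inf_le_fittingOf hR hXR)
  rw [eq_bot_iff, ← hDF]
  exact le_inf le_rfl h4

end Cfsg.Agent.Lib.H53MLFix
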