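import Cfsg.Agent.Lib.H53MLFix
import Cfsg.Agent.Lib.H53MLCore
import Cfsg.Agent.Lib.Helper40Cores
import Cfsg.Agent.S0026

set_option autoImplicit false

/-! Project 53 (S1481), piece `InK`: `M`-invariant `q`-subgroups of `R` lie in `O_{π'}(R)`. -/

namespace Cfsg.Agent.Lib.H53MLInK

open Subgroup Cfsg Cfsg.Agent.Lib.Helper30Bender Cfsg.Agent.Lib.Helper30Trans

variable {G : Type*} [Group G]

/-- coprime action: `Q = [Q,A] C_Q(A)`; with `C_Q(A) = 1` every normal-in-`⟨Q,A⟩` subgroup `W ⊇ A` contains `Q`.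
(grep the Agent libs for the coprime decomposition `Q = ⁅Q,A⁆ ⊔ C_Q(A)`: Helper30Coprime, Helper30SZ, Helper55Act, S0026/S0027…; `⁅Q,A⁆ ≤ W` since `A ≤ W` and `Q ≤ N(W)`.) -/
theorem le_of_fix_eq_bot [Finite G] {Q A W : Subgroup G} (hAQ : A ≤ normalizer (Q : Set G))
    (hcop : (Nat.card A).Coprime (Nat.card Q)) (hsolv : Group.IsSolvable A ∨ Group.IsSolvable Q)
    (hfix : Q ⊓ centralizer (A : Set G) = ⊥) (hAW : A ≤ W) (hQW : Q ≤ normalizer (W : Set G)) :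
    Q ≤ W := by
  have h1 := Cfsg.Agent.S0026.result A Q hAQ hcop hsolv
  rw [hfix, sup_bot_eq] at h1
  calc Q = ⁅Q, A⁆ := h1.symm
    _ ≤ ⁅Q, W⁆ := commutator_mono le_rfl hAW
    _ ≤ W := Cfsg.Agent.Lib.Helper53Rel.commutator_le_of_le_normalizer hQW

/-- `F := fittingOf H`, `L := R ⊔ M`, `W p := (pPrimeCore p L).map L.subtype` (normalized by `L`, order prime to `p`:
`Helper55FF.le_normalizer_map_subtype`-style / `Helper40Cores.pPrimeCore_normal`, `pPrimeCore_coprime`).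
For each prime `p ∣ |F|` pick a prime `s ≠ p`, `s ∣ |F|` (`exists_other_prime hF2 p`); `A := pCoreOf s M ≤ W p` (`H53MLCore.pCoreOf_le_pPrimeCore`), `Q ⊓ C(A) = ⊥` (`H53MLFix.fix_eq_bot`),
`A` an `s`-group, `Q` a `q`-group, `s ≠ q`; so `Q ≤ W p` (`le_of_fix_eq_bot`).
`K₀ := {x ∈ R | ∀ p prime, p ∣ |F| → x ∈ W p}` is a subgroup `≤ R`, normalized by `R`, of order prime to every `p ∣ |F|` (`K₀ ≤ W p`), so `K₀ ≤ piCoreOf _ R` (`Helper30Trans.le_piCoreOf`),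
and `Q ≤ K₀`. -/
theorem le_piCoreOf_of_inv [Finite G] {H M R Q : Subgroup G}
    (hHmax : ∀ L : Subgroup G, IsLocalSubgroup L → H ≤ L → L = H)
    (hF2 : 2 ≤ (Nat.card (fittingOf H)).primeFactors.card) (hM : M ≤ fittingOf H)
    (hCM : fittingOf H ⊓ centralizer (M : Set G) ≤ M) (hR : Group.IsSolvable R)
    (hMR : M ≤ normalizer (R : Set G))
    (hXR : H ⊓ centralizer (fittingOf H : Set G) ≤ normalizer (R : Set G))
    {q : ℕ} [Fact q.Prime] (hq : ¬ q ∣ Nat.card (fittingOf H)) (hQR : Q ≤ R) (hQ : IsPGroup q Q)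
    (hMQ : M ≤ normalizer (Q : Set G)) :
    Q ≤ piCoreOf (primesNotDvd (Nat.card (fittingOf H))) R := by
  set F := fittingOf H with hF
  set L : Subgroup G := R ⊔ M with hL
  let W : ℕ → Subgroup G := fun p => (pPrimeCore p ↥L).map L.subtype
  have hLW : ∀ p, L ≤ normalizer (W p : Set G) := by
    intro p
    rw [le_normalizer_iff]
    rintro x hx _ ⟨y, hy, rfl⟩
    exact ⟨⟨x, hx⟩ * y * ⟨x, hx⟩⁻¹,
      (Cfsg.Agent.Lib.Helper40Cores.pPrimeCore_normal (p := p) (G := ↥L)).conj_mem y hy ⟨x, hx⟩, rfl⟩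
  have hWcop : ∀ p, (Nat.card (W p)).Coprime p := by
    intro p
    have h := Cfsg.Agent.Lib.Helper40Cores.pPrimeCore_coprime (p := p) (G := ↥L)
    have h1 : Nat.card (W p) = Nat.card (pPrimeCore p ↥L) :=
      Subgroup.card_map_of_injective L.subtype_injective
    rwa [h1]
  have hQW : ∀ p : ℕ, p.Prime → p ∣ Nat.card F → Q ≤ W p := by
    intro p hp hpF
    have : Fact p.Prime := ⟨hp⟩
    obtain ⟨s, hs, hsp, hsF⟩ := exists_other_prime hF2 p
    have : Fact s.Prime := ⟨hs⟩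
    have hsq : s ≠ q := fun h => hq (h ▸ hsF)
    have hQn : Group.IsNilpotent Q := hQ.isNilpotent
    apply le_of_fix_eq_bot (A := pCoreOf s M)
      ((Cfsg.Agent.Lib.Helper53Syl.pCoreOf_le M).trans hMQ)
      (coprime_card_of_isPGroup hsq (Cfsg.Agent.Lib.Helper53Syl.pCoreOf_isPGroup M) hQ)
      (Or.inr inferInstance)
      (Cfsg.Agent.Lib.H53MLFix.fix_eq_bot hHmax hM hCM hR hXR hq hsF hQR hQ hMQ)
      (Cfsg.Agent.Lib.H53MLCore.pCoreOf_le_pPrimeCore hHmax hM hCM hR hMR (Ne.symm hsp) hpF)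
      ((hQR.trans le_sup_left).trans (hLW p))
  let K₀ : Subgroup G :=
    { carrier := {x | x ∈ R ∧ ∀ p : ℕ, p.Prime → p ∣ Nat.card F → x ∈ W p}
      one_mem' := ⟨R.one_mem, fun p _ _ => (W p).one_mem⟩
      mul_mem' := fun ha hb => ⟨R.mul_mem ha.1 hb.1,
        fun p hp hd => (W p).mul_mem (ha.2 p hp hd) (hb.2 p hp hd)⟩
      inv_mem' := fun ha => ⟨R.inv_mem ha.1, fun p hp hd => (W p).inv_mem (ha.2 p hp hd)⟩ }
  have hQK : Q ≤ K₀ := fun x hx => ⟨hQR hx, fun p hp hd => hQW p hp hd hx⟩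
  refine hQK.trans (le_piCoreOf (fun x hx => hx.1) ?_ ?_)
  · rw [le_normalizer_iff]
    intro r hr x hx
    refine ⟨R.mul_mem (R.mul_mem hr hx.1) (R.inv_mem hr), fun p hp hd => ?_⟩
    exact (mem_normalizer_iff.1 (hLW p (le_sup_left (a := R) (b := M) hr)) x).1 (hx.2 p hp hd)
  · intro p hp hd
    refine ⟨hp, fun hpF => ?_⟩
    have h1 : K₀ ≤ W p := fun x hx => hx.2 p hp hpF
    have h2 : p ∣ Nat.card (W p) := hd.trans (Subgroup.card_dvd_of_le h1)
    have h3 := Nat.Coprime.eq_one_of_dvd (hWcop p).symm h2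
    exact hp.one_lt.ne' h3

end Cfsg.Agent.Lib.H53MLInK
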