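import Cfsg.Prelude.Def_CaseTheorems
import Cfsg.Agent.Lib.Helper30Bender
import Cfsg.Agent.Lib.Helper53Syl

set_option autoImplicit false

/-! Project 53 (S1481), piece `Loc`: consequences of maximal locality. -/

namespace Cfsg.Agent.Lib.H53MLLoc

open Subgroup Cfsg Cfsg.Agent.Lib.Helper30Bender

variable {G : Type*} [Group G]

/-- `Z := zq (fittingOf H) p` is a nontrivial `p`-group (`zq_ne_bot (fittingOf_isNilpotent H) hp`, `isPGroup_zq`), so `N(Z)` is a local
subgroup; `H ≤ N(F) ≤ N(Z)` (`le_normalizer_fittingOf`, `normalizer_le_normalizer_zq`); `hHmax`. -/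
theorem normalizer_zq_eq [Finite G] {H : Subgroup G}
    (hHmax : ∀ L : Subgroup G, IsLocalSubgroup L → H ≤ L → L = H) {p : ℕ} [Fact p.Prime]
    (hp : p ∣ Nat.card (fittingOf H)) :
    normalizer ((zq (fittingOf H) p : Subgroup G) : Set G) = H := by
  apply hHmax
  · exact ⟨p, zq (fittingOf H) p, Fact.out, isPGroup_zq _ p,
      zq_ne_bot (fittingOf_isNilpotent H) hp, rfl⟩
  · exact (le_normalizer_fittingOf H).trans (normalizer_le_normalizer_zq _ p)

/-- `Z = zq F p ≤ F ⊓ C(F) ≤ F ⊓ C(M) ≤ M` (`centralizer_le`/antitone), `M ≤ F ≤ C(Z) ≤ N(Z)`, `Z` a `p`-group: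
`Cfsg.Agent.Lib.Helper53Syl.le_pCoreOf`. -/
theorem zq_le_pCoreOf {H M : Subgroup G} (hM : M ≤ fittingOf H)
    (hCM : fittingOf H ⊓ centralizer (M : Set G) ≤ M) (p : ℕ) :
    zq (fittingOf H) p ≤ pCoreOf p M := by
  have h1 : zq (fittingOf H) p ≤ M := by
    refine le_trans ?_ hCM
    exact le_inf (zq_le_left _ p) (((zq_le _ p).trans inf_le_right).trans (centralizer_le hM))
  apply Cfsg.Agent.Lib.Helper53Syl.le_pCoreOf h1 _ (isPGroup_zq _ p)
  refine le_trans ?_ (Cfsg.Agent.Lib.Helper53Rel.centralizer_le_normalizer' _)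
  intro m hm
  rw [mem_centralizer_iff]
  intro z hz
  exact ((mem_centralizer_iff.1 hz.2.1) m (hM hm)).symm

/-- `C(O_p(M)) ≤ C(Z) ≤ N(Z) = H`. -/
theorem centralizer_pCoreOf_le [Finite G] {H M : Subgroup G}
    (hHmax : ∀ L : Subgroup G, IsLocalSubgroup L → H ≤ L → L = H) (hM : M ≤ fittingOf H)
    (hCM : fittingOf H ⊓ centralizer (M : Set G) ≤ M) {p : ℕ} [Fact p.Prime]
    (hp : p ∣ Nat.card (fittingOf H)) : centralizer (pCoreOf p M : Set G) ≤ H := by
  calc centralizer (pCoreOf p M : Set G)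
      ≤ centralizer ((zq (fittingOf H) p : Subgroup G) : Set G) :=
        centralizer_le (zq_le_pCoreOf hM hCM p)
    _ ≤ normalizer ((zq (fittingOf H) p : Subgroup G) : Set G) :=
        Cfsg.Agent.Lib.Helper53Rel.centralizer_le_normalizer' _
    _ = H := normalizer_zq_eq hHmax hp

end Cfsg.Agent.Lib.H53MLLoc
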