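import Cfsg.Prelude.Def_BaumannBlocks

set_option autoImplicit false

namespace Cfsg.Agent.Lib.H55BK

open Subgroup Cfsg
open scoped commutatorElement

/-- piece `alt`: the even-weight module of odd degree is irreducible for the alternating group. -/
theorem alt_even_irred (m : ℕ) (U : AddSubgroup (Fin (2 * m + 1) → ZMod 2))
    (hev : ∀ v ∈ U, ∑ i, v i = 0)
    (hU : ∀ σ ∈ alternatingGroup (Fin (2 * m + 1)), ∀ v ∈ U, (fun i => v (σ⁻¹ i)) ∈ U)
    (hne : U ≠ ⊥) (v : Fin (2 * m + 1) → ZMod 2) (hv : ∑ i, v i = 0) : v ∈ U := by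
  classical
  have h01 : ∀ x : ZMod 2, x = 0 ∨ x = 1 := by decide
  have hxx : ∀ x : ZMod 2, x + x = 0 := by decide
  let e : Fin (2 * m + 1) → (Fin (2 * m + 1) → ZMod 2) := fun a => Pi.single a 1
  have he : ∀ a x, e a x = if x = a then 1 else 0 := fun a x => by
    simp only [e, Pi.single_apply]
  have hact : ∀ (σ : Equiv.Perm (Fin (2 * m + 1))) (a b : Fin (2 * m + 1)),
      (fun i => (e a + e b) (σ⁻¹ i)) = e (σ a) + e (σ b) := by
    intro σ a b
    ext i
    have h1 : ∀ c, (σ⁻¹ i = c) ↔ (i = σ c) := fun c => by rw [Equiv.Perm.inv_eq_iff_eq]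
    simp only [Pi.add_apply, he, h1]
  -- Step 1 : some pair
  obtain ⟨a, b, hab, habU⟩ : ∃ a b, a ≠ b ∧ e a + e b ∈ U := by
    obtain ⟨v0, hv0U, hv0⟩ : ∃ v ∈ U, v ≠ 0 := by
      by_contra h
      push Not at h
      exact hne ((AddSubgroup.eq_bot_iff_forall U).2 h)
    obtain ⟨i, hi⟩ := Function.ne_iff.1 hv0
    have hi1 : v0 i = 1 := (h01 _).resolve_left hi
    obtain ⟨j, hj⟩ : ∃ j, v0 j = 0 := by
      by_contra h
      push Not at h
      have h1 : ∀ j, v0 j = 1 := fun j => (h01 _).resolve_left (h j)
      have h2 := hev v0 hv0U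
      rw [Finset.sum_congr rfl (fun j _ => h1 j)] at h2
      simp only [Finset.sum_const, Finset.card_univ, Fintype.card_fin, nsmul_eq_mul, mul_one] at h2
      push_cast at h2
      have h3 : (2 : ZMod 2) = 0 := by decide
      rw [h3, zero_mul, zero_add] at h2
      exact one_ne_zero h2
    have hij : i ≠ j := by
      rintro rfl
      rw [hj] at hi1
      exact zero_ne_one hi1
    obtain ⟨k, hki, hkj⟩ : ∃ k, k ≠ i ∧ k ≠ j := by
      by_contra h
      push Not at h
      have h1 : (Finset.univ : Finset (Fin (2 * m + 1))) ⊆ {i, j} := by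
        intro x _
        by_cases hx : x = i
        · simp [hx]
        · simp [h x hx]
      have h2 := Finset.card_le_card h1
      have h3 : ({i, j} : Finset (Fin (2 * m + 1))).card ≤ 2 := Finset.card_le_two
      rw [Finset.card_univ, Fintype.card_fin] at h2
      have hm : m = 0 := by omega
      subst hm
      exact hij (Fin.ext (by omega))
    let τ : Equiv.Perm (Fin (2 * m + 1)) := Equiv.swap i k * Equiv.swap i j
    have hτi : τ i = j := by
      simp only [τ, Equiv.Perm.mul_apply, Equiv.swap_apply_left]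
      exact Equiv.swap_apply_of_ne_of_ne hij.symm hkj.symm
    have hτj : τ j = k := by
      simp only [τ, Equiv.Perm.mul_apply, Equiv.swap_apply_right, Equiv.swap_apply_left]
    have hτk : τ k = i := by
      simp only [τ, Equiv.Perm.mul_apply]
      rw [Equiv.swap_apply_of_ne_of_ne hki hkj, Equiv.swap_apply_right]
    have hτx : ∀ x, x ≠ i → x ≠ j → x ≠ k → τ x = x := by
      intro x h1 h2 h3
      simp only [τ, Equiv.Perm.mul_apply]
      rw [Equiv.swap_apply_of_ne_of_ne h1 h2, Equiv.swap_apply_of_ne_of_ne h1 h3]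
    have hτalt : τ⁻¹ ∈ alternatingGroup (Fin (2 * m + 1)) := by
      rw [Equiv.Perm.mem_alternatingGroup, Equiv.Perm.sign_inv]
      simp only [τ, map_mul]
      rw [Equiv.Perm.sign_swap hki.symm, Equiv.Perm.sign_swap hij]
      simp
    have hu := U.add_mem hv0U (hU _ hτalt v0 hv0U)
    rw [inv_inv] at hu
    rcases h01 (v0 k) with hk | hk
    · refine ⟨i, k, hki.symm, ?_⟩
      have : e i + e k = v0 + fun x => v0 (τ x) := by
        ext x
        simp only [Pi.add_apply, he]
        by_cases hxi : x = i
        · subst hxi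
          rw [hτi, hi1, hj, if_pos rfl, if_neg hki.symm]
        by_cases hxj : x = j
        · subst hxj
          rw [hτj, hj, hk, if_neg hxi, if_neg hkj.symm]
        by_cases hxk : x = k
        · subst hxk
          rw [hτk, hi1, hk, if_neg hxi, if_pos rfl]
        rw [hτx x hxi hxj hxk, hxx, if_neg hxi, if_neg hxk, add_zero]
      rw [this]
      exact hu
    · refine ⟨i, j, hij, ?_⟩
      have : e i + e j = v0 + fun x => v0 (τ x) := by
        ext x
        simp only [Pi.add_apply, he]
        by_cases hxi : x = i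
        · subst hxi
          rw [hτi, hi1, hj, if_pos rfl, if_neg hij]
        by_cases hxj : x = j
        · subst hxj
          rw [hτj, hj, hk, if_neg hxi, if_pos rfl]
        by_cases hxk : x = k
        · subst hxk
          rw [hτk, hi1, hk, if_neg hxi, if_neg hxj, hxx, hxx]
        rw [hτx x hxi hxj hxk, hxx, if_neg hxi, if_neg hxj, add_zero]
      rw [this]
      exact hu
  -- Step 2 : all pairs
  have hpairs : ∀ a' b', a' ≠ b' → e a' + e b' ∈ U := by
    intro a' b' hab'
    let s1 : Equiv.Perm (Fin (2 * m + 1)) := Equiv.swap a a'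
    let s2 : Equiv.Perm (Fin (2 * m + 1)) := Equiv.swap (s1 b) b'
    let τ0 : Equiv.Perm (Fin (2 * m + 1)) := s2 * s1
    have hs1a : s1 a = a' := Equiv.swap_apply_left a a'
    have hb1 : a' ≠ s1 b := by
      rw [← hs1a]
      exact fun h => hab (s1.injective h)
    have hτa : τ0 a = a' := by
      simp only [τ0, Equiv.Perm.mul_apply, hs1a]
      exact Equiv.swap_apply_of_ne_of_ne hb1 hab'
    have hτb : τ0 b = b' := by
      simp only [τ0, Equiv.Perm.mul_apply]
      exact Equiv.swap_apply_left _ _
    rcases Int.units_eq_one_or (Equiv.Perm.sign τ0) with hs | hs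
    · have h1 := hU τ0 hs _ habU
      rw [hact, hτa, hτb] at h1
      exact h1
    · have hs' : τ0 * Equiv.swap a b ∈ alternatingGroup (Fin (2 * m + 1)) := by
        rw [Equiv.Perm.mem_alternatingGroup, map_mul, hs, Equiv.Perm.sign_swap hab]
        simp
      have h1 := hU _ hs' _ habU
      rw [hact] at h1
      simp only [Equiv.Perm.mul_apply, Equiv.swap_apply_left, Equiv.swap_apply_right, hτa, hτb] at h1
      rw [add_comm (e a') (e b')]
      exact h1
  -- Step 3 : span
  have hdecomp : v = ∑ x, (v x).val • (e x + e 0) := by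
    ext y
    rw [Finset.sum_apply]
    have h1 : ∀ x, ((v x).val • (e x + e 0)) y = v x * e x y + v x * e 0 y := by
      intro x
      rw [Pi.smul_apply, nsmul_eq_mul, ZMod.natCast_val, ZMod.cast_id', id, Pi.add_apply, mul_add]
    rw [Finset.sum_congr rfl (fun x _ => h1 x), Finset.sum_add_distrib, ← Finset.sum_mul, hv,
      zero_mul, add_zero]
    simp only [he]
    simp
  rw [hdecomp]
  refine U.sum_mem (fun x _ => U.nsmul_mem ?_ _)
  by_cases hx : x = 0
  · rw [hx]
    have : e 0 + e 0 = 0 := by
      ext y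
      exact hxx _
    rw [this]
    exact U.zero_mem
  · exact hpairs x 0 hx

end Cfsg.Agent.Lib.H55BK
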