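import Cfsg.Agent.Lib.H55BKalt

set_option autoImplicit false

namespace Cfsg.Agent.Lib.H55BK

open Subgroup Cfsg
open scoped commutatorElement

variable {G : Type*} [Group G]

/-- the image of `U` under `ψ`, as an additive subgroup. -/
def secalt_img {M : Type*} [AddCommGroup M] {W : Subgroup G} (ψ : ↥W →* Multiplicative M)
    (U : Subgroup G) : AddSubgroup M where
  carrier := {v | ∃ u : ↥W, (u : G) ∈ U ∧ Multiplicative.toAdd (ψ u) = v}
  zero_mem' := ⟨1, U.one_mem, by simp⟩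
  add_mem' := by
    rintro _ _ ⟨u, hu, rfl⟩ ⟨u', hu', rfl⟩
    exact ⟨u * u', U.mul_mem hu hu', by simp⟩
  neg_mem' := by
    rintro _ ⟨u, hu, rfl⟩
    exact ⟨u⁻¹, U.inv_mem hu, by simp⟩

theorem secalt_bot {M : Type*} [AddCommGroup M] {W Z : Subgroup G} (ψ : ↥W →* Multiplicative M)
    (hker : ∀ u : ↥W, ψ u = 1 ↔ (u : G) ∈ Z) (U : Subgroup G) (hZU : Z ≤ U) (hUW : U ≤ W)
    (h : secalt_img ψ U = ⊥) : U = Z := by
  refine le_antisymm (fun u hu => ?_) hZU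
  have h1 : Multiplicative.toAdd (ψ ⟨u, hUW hu⟩) ∈ secalt_img ψ U := ⟨⟨u, hUW hu⟩, hu, rfl⟩
  rw [h, AddSubgroup.mem_bot] at h1
  exact (hker ⟨u, hUW hu⟩).1 h1

theorem secalt_top {M : Type*} [AddCommGroup M] {W Z : Subgroup G} (ψ : ↥W →* Multiplicative M)
    (hker : ∀ u : ↥W, ψ u = 1 ↔ (u : G) ∈ Z) (U : Subgroup G) (hZU : Z ≤ U) (hUW : U ≤ W)
    (h : ∀ w : ↥W, Multiplicative.toAdd (ψ w) ∈ secalt_img ψ U) : U = W := by
  refine le_antisymm hUW (fun w hw => ?_)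
  obtain ⟨u, hu, hu'⟩ := h ⟨w, hw⟩
  have h1 : ψ u = ψ ⟨w, hw⟩ := hu'
  have h2 : ψ (⟨w, hw⟩ * u⁻¹) = 1 := by
    rw [map_mul, map_inv, h1, mul_inv_cancel]
  have h3 := hZU ((hker _).1 h2)
  have h4 := U.mul_mem h3 hu
  simpa using h4

/-- piece `secalt` -/
theorem section_irred_alt {m : ℕ} {E W Z : Subgroup G}
    (h : ActsAsOddPermModuleOnSection (2 * m + 1) (alternatingGroup (Fin (2 * m + 1))) E W Z)
    (U : Subgroup G) (hZU : Z ≤ U) (hUW : U ≤ W) (hEU : E ≤ normalizer (U : Set G)) :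
    U = Z ∨ U = W := by
  obtain ⟨_, _, ρ, ψ, hρ, hev, _, hker, hequiv⟩ := h
  by_cases hbot : secalt_img ψ U = ⊥
  · exact Or.inl (secalt_bot ψ hker U hZU hUW hbot)
  · right
    refine secalt_top ψ hker U hZU hUW (fun w => ?_)
    refine alt_even_irred m _ ?_ ?_ hbot _ (hev w)
    · rintro _ ⟨u, _, rfl⟩
      exact hev u
    · rintro g hg _ ⟨u, hu, rfl⟩
      rw [← hρ] at hg
      obtain ⟨e, rfl⟩ := hg
      obtain ⟨w, hw1, hw2⟩ := hequiv e u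
      refine ⟨w, ?_, funext hw2⟩
      rw [hw1]
      exact (Subgroup.mem_normalizer_iff.1 (hEU e.2) _).1 hu

end Cfsg.Agent.Lib.H55BK
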