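import Cfsg.Agent.Lib.H55BKsecsl2
import Cfsg.Agent.Lib.H55BKsecalt
import Cfsg.Agent.Lib.Helper53Basic

set_option autoImplicit false

namespace Cfsg.Agent.Lib.H55BK

open Subgroup Cfsg
open scoped commutatorElement

variable {G : Type*} [Group G]

/-- auxiliary for `blk`: a subgroup `E = O^p(E)` with `E / O_p(E)` trivial is trivial. -/
theorem blk_eq_bot_of_subsingleton {p : ℕ} [Fact p.Prime] {E : Subgroup G}
    (hres : pResidualOf p E = E) (hsub : Subsingleton (↥E ⧸ pCore p ↥E)) : E = ⊥ := by
  have htop : ∀ x : E, x ∈ pCore p ↥E := by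
    intro x
    rw [← QuotientGroup.eq_one_iff]
    exact Subsingleton.elim _ _
  have hp : IsPGroup p ↥E := by
    intro x
    obtain ⟨k, hk⟩ := Cfsg.Agent.Lib.Helper53Basic.pCore_isPGroup p ↥E ⟨x, htop x⟩
    exact ⟨k, congrArg Subtype.val hk⟩
  have h1 : pResidual p ↥E = ⊥ := by
    rw [pResidual, Subgroup.closure_eq_bot_iff]
    intro g hg
    have hg' : Nat.Coprime (orderOf g) p := hg
    obtain ⟨k, hk⟩ := (IsPGroup.iff_orderOf.1 hp) g
    rw [hk] at hg'
    rcases Nat.eq_zero_or_pos k with rfl | hk0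
    · rw [pow_zero, orderOf_eq_one_iff] at hk
      exact hk
    · exfalso
      have h2 : p ∣ Nat.gcd (p ^ k) p := Nat.dvd_gcd (dvd_pow_self p hk0.ne') dvd_rfl
      rw [Nat.Coprime] at hg'
      rw [hg'] at h2
      exact (Fact.out : p.Prime).one_lt.ne' (Nat.dvd_one.1 h2)
  rw [← hres, pResidualOf, h1, Subgroup.map_bot]

/-- piece `blk` : the section `W / Z` of a block is nontrivial and irreducible. -/
theorem block_irred [Finite G] {p : ℕ} [Fact p.Prime] {T E : Subgroup G}
    (hE : IsBaumannBlock p T E) :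
    omegaOneCenter p (pCoreOf p E) ⊓ centralizer (E : Set G) ≠ omegaOneCenter p (pCoreOf p E) ∧
    ∀ U : Subgroup G, omegaOneCenter p (pCoreOf p E) ⊓ centralizer (E : Set G) ≤ U →
      U ≤ omegaOneCenter p (pCoreOf p E) → E ≤ normalizer (U : Set G) →
      U = omegaOneCenter p (pCoreOf p E) ⊓ centralizer (E : Set G) ∨
      U = omegaOneCenter p (pCoreOf p E) := by
  obtain ⟨hres, -, -, hne, hcase⟩ := hE
  rcases hcase with ⟨F, _, _, n, -, -, hact, -⟩ | ⟨-, m, hiso, hact, -⟩
  · refine ⟨?_, fun U h1 h2 h3 => section_irred_sl2 hact U h1 h2 h3⟩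
    intro hZW
    obtain ⟨-, -, ρ, ψ, -, hsurj, hker, -⟩ := hact
    obtain ⟨u, hu⟩ := hsurj (Multiplicative.ofAdd (fun _ => (1 : F)))
    have h1 : ψ u = 1 := (hker u).2 (by rw [hZW]; exact u.2)
    rw [h1] at hu
    have h2 := congrArg (fun v : Multiplicative (Fin 2 → F) => Multiplicative.toAdd v 0) hu
    simp at h2
  · refine ⟨?_, fun U h1 h2 h3 => section_irred_alt hact U h1 h2 h3⟩
    intro hZW
    obtain ⟨-, -, ρ, ψ, -, -, hsurj, hker, -⟩ := hact
    rcases Nat.eq_zero_or_pos m with rfl | hm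
    · obtain ⟨e⟩ := hiso
      have hsub : Subsingleton (↥E ⧸ pCore p ↥E) := by
        have : Subsingleton ↥(alternatingGroup (Fin (2 * 0 + 1))) := by
          constructor
          intro a b
          apply Subtype.ext
          exact Subsingleton.elim (α := Equiv.Perm (Fin 1)) _ _
        exact e.toEquiv.subsingleton
      have := blk_eq_bot_of_subsingleton hres hsub
      apply hne
      rw [this]
      simp
    · let i0 : Fin (2 * m + 1) := ⟨0, by omega⟩
      let i1 : Fin (2 * m + 1) := ⟨1, by omega⟩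
      have h01 : i0 ≠ i1 := by
        intro h
        have := congrArg Fin.val h
        simp [i0, i1] at this
      obtain ⟨u, hu⟩ := hsurj (Pi.single i0 1 + Pi.single i1 1) (by
        simp only [Pi.add_apply, Finset.sum_add_distrib, Finset.sum_pi_single', Finset.mem_univ,
          if_true]
        decide)
      have h1 : ψ u = 1 := (hker u).2 (by rw [hZW]; exact u.2)
      rw [h1] at hu
      have h2 := congrFun hu i0
      simp [h01] at h2

end Cfsg.Agent.Lib.H55BK
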