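import Cfsg.Prelude.Def_BaumannBlocks

set_option autoImplicit false

namespace Cfsg.Agent.Lib.H55BK

open Subgroup Cfsg
open scoped commutatorElement

variable {G : Type*} [Group G]

/-- piece `elem` : `Ω₁(Z(X))` is central in `X`, of exponent `p`, and the largest such. -/
theorem omegaOneCenter_props (p : ℕ) (X : Subgroup G) :
    omegaOneCenter p X ≤ X ∧ omegaOneCenter p X ≤ centralizer (X : Set G) ∧
    (∀ w ∈ omegaOneCenter p X, w ^ p = 1) ∧
    ∀ Y : Subgroup G, Y ≤ X → Y ≤ centralizer (X : Set G) → (∀ y ∈ Y, y ^ p = 1) →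
      Y ≤ omegaOneCenter p X := by
  have hle : omegaOneCenter p X ≤ X ⊓ centralizer (X : Set G) := by
    unfold omegaOneCenter omegaOne
    rw [closure_le]
    rintro x ⟨hx, -⟩
    exact hx
  refine ⟨hle.trans inf_le_left, hle.trans inf_le_right, ?_, ?_⟩
  · intro w hw
    have hw' := hw
    unfold omegaOneCenter omegaOne at hw'
    induction hw' using closure_induction with
    | mem x hx => exact hx.2
    | one => exact one_pow p
    | mul x y hx hy ihx ihy =>
      have hx' : x ∈ omegaOneCenter p X := hx
      have hy' : y ∈ omegaOneCenter p X := hy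
      have hc : Commute x y := by
        have h1 : x ∈ X := (mem_inf.mp (hle hx')).1
        have h2 : y ∈ centralizer (X : Set G) := (mem_inf.mp (hle hy')).2
        rw [mem_centralizer_iff] at h2
        exact h2 x h1
      rw [hc.mul_pow, ihx hx', ihy hy', one_mul]
    | inv x hx ih =>
      rw [inv_pow, ih hx, inv_one]
  · intro Y h1 h2 h3 y hy
    unfold omegaOneCenter omegaOne
    exact subset_closure ⟨⟨h1 hy, h2 hy⟩, h3 y hy⟩

end Cfsg.Agent.Lib.H55BK
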