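import Cfsg.Prelude.Def_BaumannBlocks

set_option autoImplicit false

namespace Cfsg.Agent.Lib.H55BK

open Subgroup Cfsg
open scoped commutatorElement

variable {G : Type*} [Group G]

theorem fix_eq_bot_of_commutator_eq_self {S U : Subgroup G} (hS : Group.IsNilpotent S)
    (hU : U ≤ S) (h : ⁅U, S⁆ = U) : U = ⊥ := by
  obtain ⟨n, hn⟩ := (Subgroup.isNilpotent_iff_lowerCentralSeries S).mp hS
  have key : ∀ k, U ≤ S.lowerCentralSeries k := by
    intro k
    induction k with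
    | zero => simpa using hU
    | succ k ih =>
      rw [Subgroup.lowerCentralSeries_succ, ← h]
      exact commutator_mono ih le_rfl
  have h1 := key n
  rwa [hn, le_bot_iff] at h1

theorem fix_commutator_le_left {U S : Subgroup G} (h : S ≤ normalizer (U : Set G)) :
    ⁅U, S⁆ ≤ U := by
  rw [commutator_le]
  intro u hu s hs
  rw [commutatorElement_def, mul_assoc, mul_assoc, ← mul_assoc s]
  exact mul_mem hu ((mem_normalizer_iff.mp (h hs) _).mp (inv_mem hu))

theorem fix_normalizer_commutator {U S : Subgroup G} (h : S ≤ normalizer (U : Set G)) :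
    S ≤ normalizer ((⁅U, S⁆ : Subgroup G) : Set G) := by
  intro s hs
  have hconj : ∀ t ∈ S, ∀ x ∈ ⁅U, S⁆, t * x * t⁻¹ ∈ ⁅U, S⁆ := by
    intro t ht x hx
    have hle : ⁅U, S⁆ ≤ (⁅U, S⁆ : Subgroup G).comap (MulAut.conj t).toMonoidHom := by
      rw [commutator_le]
      intro u hu s' hs'
      rw [mem_comap]
      show t * ⁅u, s'⁆ * t⁻¹ ∈ _
      have e : t * ⁅u, s'⁆ * t⁻¹ = ⁅t * u * t⁻¹, t * s' * t⁻¹⁆ := by
        simp only [commutatorElement_def]; group
      rw [e]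
      exact commutator_mem_commutator ((mem_normalizer_iff.mp (h ht) _).mp hu)
        (S.mul_mem (S.mul_mem ht hs') (S.inv_mem ht))
    exact hle hx
  rw [mem_normalizer_iff]
  intro x
  refine ⟨hconj s hs x, fun hx => ?_⟩
  have := hconj s⁻¹ (S.inv_mem hs) _ hx
  have e : s⁻¹ * (s * x * s⁻¹) * s⁻¹⁻¹ = x := by group
  rwa [e] at this

/-- piece `fix`: a `p`-group acting on a `p`-group `W` has a fixed point on `W` modulo any proper subgroup `Z`. -/
theorem exists_fixed_mod [Finite G] {p : ℕ} [Fact p.Prime] {W Z P : Subgroup G}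
    (hW : IsPGroup p W) (hP : IsPGroup p P) (hPW : P ≤ normalizer (W : Set G))
    (hZW : Z < W) :
    ∃ w ∈ W, w ∉ Z ∧ ∀ x ∈ P, ⁅w, x⁆ ∈ Z := by
  set S : Subgroup G := P ⊔ W with hSdef
  have hSp : IsPGroup p S := hP.to_sup_of_normal_right' hW hPW
  have hS : Group.IsNilpotent S := hSp.isNilpotent
  have hWS : W ≤ S := le_sup_right
  have hSW : S ≤ normalizer (W : Set G) := sup_le hPW le_normalizer
  have hne : ¬ W ≤ Z := not_le_of_gt hZW
  let F : Set (Subgroup G) := {U | U ≤ W ∧ S ≤ normalizer (U : Set G) ∧ ¬ U ≤ Z}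
  obtain ⟨U, hU⟩ := (Set.toFinite F).exists_minimal ⟨W, le_rfl, hSW, hne⟩
  obtain ⟨⟨hUT, hUn, hUZ⟩, hmin⟩ := hU
  have h1 : ⁅U, S⁆ ≤ U := fix_commutator_le_left hUn
  have h2 : ⁅U, S⁆ ≤ Z := by
    by_contra hcon
    have h3 : U ≤ ⁅U, S⁆ :=
      hmin ⟨h1.trans hUT, fix_normalizer_commutator hUn, hcon⟩ h1
    have h4 := fix_eq_bot_of_commutator_eq_self hS (hUT.trans hWS) (le_antisymm h1 h3)
    exact hUZ (h4 ▸ bot_le)
  obtain ⟨t, ht, htZ⟩ := SetLike.not_le_iff_exists.mp hUZ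
  exact ⟨t, hUT ht, htZ, fun s hs => h2 (commutator_mem_commutator ht (le_sup_left (a := P) hs))⟩

end Cfsg.Agent.Lib.H55BK
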