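import Cfsg.Prelude.Def_BaumannBlocks

set_option autoImplicit false

namespace Cfsg.Agent.Lib.H55BK

open Subgroup Cfsg
open scoped commutatorElement

variable {G : Type*} [Group G]

theorem inv_le_normalizer {N K : Subgroup G} (h : ∀ g ∈ N, ∀ x ∈ K, g * x * g⁻¹ ∈ K) :
    N ≤ normalizer (K : Set G) := by
  intro g hg
  rw [mem_normalizer_iff]
  intro x
  refine ⟨h g hg x, fun hx => ?_⟩
  have := h g⁻¹ (N.inv_mem hg) _ hx
  have e : g⁻¹ * (g * x * g⁻¹) * g⁻¹⁻¹ = x := by group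
  rwa [e] at this

theorem inv_conj_mem {K : Subgroup G} {g x : G} (hg : g ∈ normalizer (K : Set G)) (hx : x ∈ K) :
    g * x * g⁻¹ ∈ K := (mem_normalizer_iff.mp hg x).mp hx

theorem inv_pCore_map {H : Type*} [Group H] (p : ℕ) (φ : H ≃* H) :
    (pCore p H).map φ.toMonoidHom ≤ pCore p H := by
  rw [map_le_iff_le_comap]
  unfold pCore
  apply sSup_le
  rintro N ⟨hN, hp⟩
  rw [← map_le_iff_le_comap]
  apply le_sSup
  refine ⟨hN.map _ φ.surjective, hp.map _⟩

theorem inv_pCoreOf (p : ℕ) (E : Subgroup G) :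
    normalizer (E : Set G) ≤ normalizer (pCoreOf p E : Set G) := by
  apply inv_le_normalizer
  rintro g hg _ ⟨x, hx, rfl⟩
  have h1 := inv_pCore_map p (E.normalizerMonoidHom ⟨g, hg⟩) (mem_map_of_mem _ hx)
  refine ⟨_, h1, ?_⟩
  simp

theorem inv_omega (p : ℕ) (X : Subgroup G) :
    normalizer (X : Set G) ≤ normalizer (omegaOneCenter p X : Set G) := by
  apply inv_le_normalizer
  intro g hg x hx
  have hle : omegaOneCenter p X ≤ (omegaOneCenter p X).comap (MulAut.conj g).toMonoidHom := by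
    conv_lhs => unfold omegaOneCenter omegaOne
    rw [closure_le]
    rintro y ⟨hy, hyp⟩
    rw [SetLike.mem_coe, mem_comap]
    show g * y * g⁻¹ ∈ _
    unfold omegaOneCenter omegaOne
    apply Subgroup.subset_closure
    obtain ⟨hy1, hy2⟩ := mem_inf.mp hy
    refine ⟨mem_inf.mpr ⟨inv_conj_mem hg hy1, ?_⟩, ?_⟩
    · rw [mem_centralizer_iff] at hy2 ⊢
      intro z hz
      have hz' : g⁻¹ * z * g⁻¹⁻¹ ∈ X := inv_conj_mem (inv_mem hg) hz
      have := hy2 _ hz'
      have e1 : z * (g * y * g⁻¹) = g * ((g⁻¹ * z * g⁻¹⁻¹) * y) * g⁻¹ := by group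
      have e2 : g * y * g⁻¹ * z = g * (y * (g⁻¹ * z * g⁻¹⁻¹)) * g⁻¹ := by group
      rw [e1, e2, this]
    · rw [conj_pow, hyp]; group
  exact hle hx

theorem inv_centralizer (E : Subgroup G) :
    normalizer (E : Set G) ≤ normalizer (centralizer (E : Set G) : Set G) := by
  apply inv_le_normalizer
  intro g hg y hy2
  rw [mem_centralizer_iff] at hy2 ⊢
  intro z hz
  have hz' : g⁻¹ * z * g⁻¹⁻¹ ∈ E := inv_conj_mem (inv_mem hg) hz
  have := hy2 _ hz'
  have e1 : z * (g * y * g⁻¹) = g * ((g⁻¹ * z * g⁻¹⁻¹) * y) * g⁻¹ := by group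
  have e2 : g * y * g⁻¹ * z = g * (y * (g⁻¹ * z * g⁻¹⁻¹)) * g⁻¹ := by group
  rw [e1, e2, this]

theorem inv_commutator {N U S : Subgroup G} (hU : N ≤ normalizer (U : Set G))
    (hS : N ≤ normalizer (S : Set G)) : N ≤ normalizer ((⁅U, S⁆ : Subgroup G) : Set G) := by
  apply inv_le_normalizer
  intro t ht x hx
  have hle : ⁅U, S⁆ ≤ (⁅U, S⁆ : Subgroup G).comap (MulAut.conj t).toMonoidHom := by
    rw [commutator_le]
    intro u hu s' hs'
    rw [mem_comap]
    show t * ⁅u, s'⁆ * t⁻¹ ∈ _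
    have e : t * ⁅u, s'⁆ * t⁻¹ = ⁅t * u * t⁻¹, t * s' * t⁻¹⁆ := by
      simp only [commutatorElement_def]; group
    rw [e]
    exact commutator_mem_commutator (inv_conj_mem (hU ht) hu) (inv_conj_mem (hS ht) hs')
  exact hle hx

/-- piece `inv` : whatever normalizes `E` normalizes `O_p(E)`, `W = Ω₁Z(O_p(E))`, `C_W(E)`, `[W,E]`. -/
theorem normalizer_le_normalizer_W (p : ℕ) (E : Subgroup G) :
    normalizer (E : Set G) ≤ normalizer (pCoreOf p E : Set G) ∧
    normalizer (E : Set G) ≤ normalizer (omegaOneCenter p (pCoreOf p E) : Set G) ∧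
    normalizer (E : Set G) ≤
      normalizer ((omegaOneCenter p (pCoreOf p E) ⊓ centralizer (E : Set G) : Subgroup G) : Set G) ∧
    normalizer (E : Set G) ≤
      normalizer ((⁅omegaOneCenter p (pCoreOf p E), E⁆ : Subgroup G) : Set G) := by
  have h1 := inv_pCoreOf p E
  have h2 : normalizer (E : Set G) ≤ normalizer (omegaOneCenter p (pCoreOf p E) : Set G) :=
    h1.trans (inv_omega p _)
  refine ⟨h1, h2, ?_, inv_commutator h2 le_rfl⟩
  apply inv_le_normalizer
  intro g hg x hx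
  obtain ⟨hx1, hx2⟩ := mem_inf.mp hx
  exact mem_inf.mpr ⟨inv_conj_mem (h2 hg) hx1, inv_conj_mem (inv_centralizer E hg) hx2⟩

end Cfsg.Agent.Lib.H55BK
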