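import Cfsg.Agent.Lib.Helper55Core
import Cfsg.Agent.Lib.Helper40Sylow
import Cfsg.Agent.Lib.Helper54Parabolic

set_option autoImplicit false

/-! Small facts on four-groups `W` (order 4, exponent 2) inside an ambient group and 2-groups acting on them. -/

namespace Cfsg.Agent.Lib.Helper55Four

open Cfsg Cfsg.Agent.Lib.Helper55Core Cfsg.Agent.Lib.Helper40Sylow

variable {G : Type*} [Group G]

theorem comm_of_sq {W : Subgroup G} (hW : ∀ w ∈ W, w * w = 1) {a b : G} (ha : a ∈ W) (hb : b ∈ W) :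
    a * b = b * a := by
  have h1 := hW _ (W.mul_mem ha hb)
  have h2 := hW a ha
  have h3 := hW b hb
  calc a * b = (b * b) * (a * b) * (a * a) := by rw [h2, h3]; group
    _ = b * (b * a) * ((b * a) * a) := by group
    _ = b * ((b * a) * (b * a)) * a := by group
    _ = b * a := by rw [hW _ (W.mul_mem hb ha)]; group

theorem inv_eq_of_sq {W : Subgroup G} (hW : ∀ w ∈ W, w * w = 1) {a : G} (ha : a ∈ W) : a⁻¹ = a :=
  inv_eq_of_mul_eq_one_left (hW a ha)

theorem eq_of_card_two {U : Subgroup G} (hU : Nat.card U = 2) {u x : G} (hu : u ∈ U) (hu1 : u ≠ 1)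
    (hx : x ∈ U) (hx1 : x ≠ 1) : x = u := by
  obtain ⟨y, -, hy⟩ := (Nat.card_eq_two_iff' (1 : U)).1 hU
  have h1 := hy ⟨u, hu⟩ (fun h => hu1 (congrArg Subtype.val h))
  have h2 := hy ⟨x, hx⟩ (fun h => hx1 (congrArg Subtype.val h))
  exact congrArg Subtype.val (h2.trans h1.symm)

theorem mul_mem_iff_of_card [Finite G] {W U : Subgroup G} (hW : Nat.card W = 4) (hUW : U ≤ W) (hU : Nat.card U = 2)
    {a b : G} (ha : a ∈ W) (hb : b ∈ W) : a * b ∈ U ↔ (a ∈ U ↔ b ∈ U) := by
  have hidx : (U.subgroupOf W).index = 2 := by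
    have h1 := (U.subgroupOf W).card_mul_index
    rw [Nat.card_congr (Subgroup.subgroupOfEquivOfLe hUW).toEquiv, hU, hW] at h1
    omega
  have := Subgroup.mul_mem_iff_of_index_two hidx (a := ⟨a, ha⟩) (b := ⟨b, hb⟩)
  simpa [Subgroup.mem_subgroupOf] using this

theorem card_eq_two_of_lt [Finite G] {W U : Subgroup G} (hW : Nat.card W = 4) (hUW : U ≤ W) (h1 : U ≠ ⊥) (h2 : U ≠ W) :
    Nat.card U = 2 := by
  have hd : Nat.card U ∣ 4 := hW ▸ Subgroup.card_dvd_of_le hUW
  have hle : Nat.card U ≤ 4 := Nat.le_of_dvd (by norm_num) hd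
  have hne1 : Nat.card U ≠ 1 := fun h => h1 (Subgroup.card_eq_one.1 h)
  have hne4 : Nat.card U ≠ 4 := fun h => h2 (Subgroup.eq_of_le_of_card_ge hUW (by rw [h, hW]))
  have hpos : 0 < Nat.card U := Nat.card_pos
  interval_cases h : Nat.card U <;> simp_all

theorem isPGroup_four {W : Subgroup G} (hW : Nat.card W = 4) : IsPGroup 2 W :=
  IsPGroup.of_card (n := 2) (by rw [hW]; norm_num)

theorem ne_bot_four {W : Subgroup G} (hW : Nat.card W = 4) : W ≠ ⊥ := by
  intro h
  rw [h, Subgroup.card_bot] at hW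
  omega

/-- the fixed points on `W` of a 2-group that does not centralize `W` have order 2 -/
theorem card_inf_centralizer [Finite G] {W A : Subgroup G} (hW : Nat.card W = 4) (hA : IsPGroup 2 A)
    (hAW : A ≤ Subgroup.normalizer (W : Set G)) (hnc : ¬ A ≤ Subgroup.centralizer (W : Set G)) :
    Nat.card ↥(W ⊓ Subgroup.centralizer (A : Set G)) = 2 := by
  have : Fact (Nat.Prime 2) := ⟨Nat.prime_two⟩
  apply card_eq_two_of_lt hW inf_le_left
  · exact Cfsg.Agent.Lib.Helper54Parabolic.inf_centralizer_ne_bot hA (isPGroup_four hW) (ne_bot_four hW) hAW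
  · intro h
    apply hnc
    rw [Subgroup.le_centralizer_iff]
    rw [← h]; exact inf_le_right

/-- an abelian 2-group acting nontrivially on a four-group: the kernel has index 2 -/
theorem card_eq_two_mul [Finite G] {W A : Subgroup G} (hW : Nat.card W = 4) (hW2 : ∀ w ∈ W, w * w = 1)
    (hA : IsPGroup 2 A)
    (hAW : A ≤ Subgroup.normalizer (W : Set G)) (hnc : ¬ A ≤ Subgroup.centralizer (W : Set G)) :
    Nat.card A = Nat.card ↥(A ⊓ Subgroup.centralizer (W : Set G)) * 2 := by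
  set U := W ⊓ Subgroup.centralizer (A : Set G) with hU
  have hU2 : Nat.card U = 2 := card_inf_centralizer hW hA hAW hnc
  have hUW : U ≤ W := inf_le_left
  -- a nonidentity element of U
  obtain ⟨u, huU, hu1⟩ : ∃ u ∈ U, u ≠ 1 := by
    have : U ≠ ⊥ := fun h => by rw [h, Subgroup.card_bot] at hU2; omega
    obtain ⟨u, hu⟩ := Subgroup.ne_bot_iff_exists_ne_one.1 this
    exact ⟨u, u.2, fun h => hu (Subtype.ext h)⟩
  -- an element of W outside U
  obtain ⟨w₁, hw₁W, hw₁U⟩ : ∃ w ∈ W, w ∉ U := by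
    by_contra hcon
    have : W ≤ U := fun w hw => by
      by_contra h
      exact hcon ⟨w, hw, h⟩
    have := Subgroup.card_le_of_le this
    omega
  have hcU : ∀ a ∈ A, ∀ x ∈ U, a * x * a⁻¹ = x := by
    intro a ha x hx
    have := (Subgroup.mem_centralizer_iff.1 hx.2) a ha
    rw [this, mul_inv_cancel_right]
  have hconjW : ∀ a ∈ A, ∀ w ∈ W, a * w * a⁻¹ ∈ W := fun a ha w hw =>
    (Subgroup.le_normalizer_iff.1 hAW) a ha w hw
  have hconjU : ∀ a ∈ A, a * w₁ * a⁻¹ ∉ U := by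
    intro a ha h
    apply hw₁U
    have h2 := hcU a⁻¹ (A.inv_mem ha) _ h
    have e : a⁻¹ * (a * w₁ * a⁻¹) * a⁻¹⁻¹ = w₁ := by group
    rw [e] at h2
    rw [h2]; exact h
  -- the cocycle
  have hc : ∀ a ∈ A, a * w₁ * a⁻¹ = w₁ ∨ a * w₁ * a⁻¹ = w₁ * u := by
    intro a ha
    have h1 : w₁ * (a * w₁ * a⁻¹) ∈ U :=
      (mul_mem_iff_of_card hW hUW hU2 hw₁W (hconjW a ha w₁ hw₁W)).2
        ⟨fun h => absurd h hw₁U, fun h => absurd h (hconjU a ha)⟩
    by_cases h2 : w₁ * (a * w₁ * a⁻¹) = 1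
    · left
      have : a * w₁ * a⁻¹ = w₁⁻¹ := eq_inv_of_mul_eq_one_right h2
      rw [this, inv_eq_of_sq hW2 hw₁W]
    · right
      have h3 := eq_of_card_two hU2 huU hu1 h1 h2
      calc a * w₁ * a⁻¹ = (w₁ * w₁) * (a * w₁ * a⁻¹) := by rw [hW2 w₁ hw₁W, one_mul]
        _ = w₁ * (w₁ * (a * w₁ * a⁻¹)) := by group
        _ = w₁ * u := by rw [h3]
  -- centralizing W is the same as centralizing w₁
  have hiff : ∀ a ∈ A, a ∈ Subgroup.centralizer (W : Set G) ↔ a * w₁ * a⁻¹ = w₁ := by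
    intro a ha
    constructor
    · intro h
      have := (Subgroup.mem_centralizer_iff.1 h) w₁ hw₁W
      rw [← this, mul_inv_cancel_right]
    · intro h
      rw [Subgroup.mem_centralizer_iff]
      intro w hw
      by_cases hwU : w ∈ U
      · have := hcU a ha w hwU
        calc w * a = (a * w * a⁻¹) * a := by rw [this]
          _ = a * w := by group
      · have h1 : w * w₁ ∈ U := (mul_mem_iff_of_card hW hUW hU2 hw hw₁W).2
          ⟨fun h => absurd h hwU, fun h => absurd h hw₁U⟩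
        have h2 := hcU a ha _ h1
        have h3 : a * w * a⁻¹ = w := by
          have e : a * (w * w₁) * a⁻¹ = (a * w * a⁻¹) * (a * w₁ * a⁻¹) := by group
          rw [e, h] at h2
          exact mul_right_cancel h2
        calc w * a = (a * w * a⁻¹) * a := by rw [h3]
          _ = a * w := by group
  obtain ⟨a₀, ha₀A, ha₀⟩ : ∃ a ∈ A, a ∉ Subgroup.centralizer (W : Set G) := by
    by_contra hcon
    exact hnc fun a ha => by
      by_contra h
      exact hcon ⟨a, ha, h⟩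
  have ha₀' : a₀ * w₁ * a₀⁻¹ = w₁ * u := by
    rcases hc a₀ ha₀A with h | h
    · exact absurd ((hiff a₀ ha₀A).2 h) ha₀
    · exact h
  have huu : u * u = 1 := hW2 u (hUW huU)
  have hidx : ((A ⊓ Subgroup.centralizer (W : Set G)).subgroupOf A).index = 2 := by
    rw [Subgroup.index_eq_two_iff]
    refine ⟨⟨a₀, ha₀A⟩, ?_⟩
    rintro ⟨b, hb⟩
    have e : (b * a₀) * w₁ * (b * a₀)⁻¹ = (b * w₁ * b⁻¹) * u := by
      calc (b * a₀) * w₁ * (b * a₀)⁻¹ = b * (a₀ * w₁ * a₀⁻¹) * b⁻¹ := by group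
        _ = b * (w₁ * u) * b⁻¹ := by rw [ha₀']
        _ = (b * w₁ * b⁻¹) * (b * u * b⁻¹) := by group
        _ = (b * w₁ * b⁻¹) * u := by rw [hcU b hb u huU]
    simp only [Subgroup.mem_subgroupOf, Subgroup.coe_mul, Subgroup.mem_inf]
    rcases hc b hb with h | h
    · -- b centralizes W
      right
      refine ⟨⟨hb, (hiff b hb).2 h⟩, ?_⟩
      rintro ⟨-, h2⟩
      rw [hiff _ (A.mul_mem hb ha₀A), e, h] at h2
      exact hu1 (mul_eq_left.1 h2)
    · left
      refine ⟨⟨A.mul_mem hb ha₀A, ?_⟩, ?_⟩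
      · rw [hiff _ (A.mul_mem hb ha₀A), e, h, mul_assoc, huu, mul_one]
      · rintro ⟨-, h2⟩
        rw [hiff b hb, h] at h2
        exact hu1 (mul_eq_left.1 h2)
  have h1 := ((A ⊓ Subgroup.centralizer (W : Set G)).subgroupOf A).card_mul_index
  rw [hidx, Nat.card_congr (Subgroup.subgroupOfEquivOfLe (inf_le_left : A ⊓ Subgroup.centralizer (W : Set G) ≤ A)).toEquiv] at h1
  exact h1.symm

end Cfsg.Agent.Lib.Helper55Four
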