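import Cfsg.Prelude.Def_JComponents
import Cfsg.Agent.Lib.Helper55JComp
import Cfsg.Agent.Lib.Helper55Four
import Cfsg.Agent.Lib.Helper13Thompson2
import Cfsg.Agent.Lib.Helper14ElemAb
import Cfsg.Agent.Lib.Helper52Basic

set_option autoImplicit false

/-! Structure of `⟨K, J(T)⟩` for a `J(T)`-component `K`. -/

namespace Cfsg.Agent.Lib.Helper55JStruct

open Cfsg Cfsg.Agent.Lib.Helper55Core Cfsg.Agent.Lib.Helper55JComp Cfsg.Agent.Lib.Helper40Sylow
  Cfsg.Agent.Lib.Helper55Four Cfsg.Agent.Lib.Helper13Thompson2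
open scoped commutatorElement

variable {G : Type*} [Group G]

theorem normalizer_le_normalizer_omegaCenterOf [Finite G] (Q : Subgroup G) :
    Subgroup.normalizer (Q : Set G) ≤ Subgroup.normalizer (omegaCenterOf Q : Set G) := by
  intro g hg
  rw [mem_normalizer_iff_cj] at hg ⊢
  apply cj_eq_of_le
  have := Om_cj_le 2 Q g
  rwa [hg] at this

theorem le_normalizer_commutator {H A B : Subgroup G} (hA : H ≤ Subgroup.normalizer (A : Set G))
    (hB : H ≤ Subgroup.normalizer (B : Set G)) : H ≤ Subgroup.normalizer ((⁅A, B⁆ : Subgroup G) : Set G) := by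
  intro h hh
  rw [mem_normalizer_iff_cj]
  show (⁅A, B⁆).map (MulAut.conj h).toMonoidHom = ⁅A, B⁆
  rw [Subgroup.map_commutator]
  have h1 : A.map (MulAut.conj h).toMonoidHom = A := mem_normalizer_iff_cj.1 (hA hh)
  have h2 : B.map (MulAut.conj h).toMonoidHom = B := mem_normalizer_iff_cj.1 (hB hh)
  rw [h1, h2]

theorem normalizer_le_normalizer_wOf [Finite G] (K : Subgroup G) :
    Subgroup.normalizer (K : Set G) ≤ Subgroup.normalizer (wOf K : Set G) :=
  le_normalizer_commutator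
    ((normalizer_le_normalizer_pCoreOf K).trans (normalizer_le_normalizer_omegaCenterOf _)) le_rfl

theorem omegaCenterOf_le (Q : Subgroup G) : omegaCenterOf Q ≤ Q ⊓ Subgroup.centralizer (Q : Set G) :=
  Om_le 2 Q

theorem wOf_le_omegaCenterOf [Finite G] (K : Subgroup G) : wOf K ≤ omegaCenterOf (pCoreOf 2 K) :=
  commutator_le_left_of_le_normalizer
    ((le_normalizer_pCoreOf K).trans (normalizer_le_normalizer_omegaCenterOf _))

theorem wOf_le_pCoreOf [Finite G] (K : Subgroup G) : wOf K ≤ pCoreOf 2 K :=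
  (wOf_le_omegaCenterOf K).trans ((omegaCenterOf_le _).trans inf_le_left)

theorem pCoreOf_le_centralizer_wOf [Finite G] (K : Subgroup G) :
    pCoreOf 2 K ≤ Subgroup.centralizer (wOf K : Set G) := by
  rw [Subgroup.le_centralizer_iff]
  exact (wOf_le_omegaCenterOf K).trans ((omegaCenterOf_le _).trans inf_le_right)

theorem mem_omegaCenterOf {Q : Subgroup G} {z : G} (h1 : z ∈ Q) (h2 : z ∈ Subgroup.centralizer (Q : Set G))
    (h3 : z * z = 1) : z ∈ omegaCenterOf Q :=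
  Subgroup.subset_closure ⟨⟨h1, h2⟩, by rw [pow_two]; exact h3⟩

theorem sq_of_mem_omegaCenterOf {Q : Subgroup G} {z : G} (h : z ∈ omegaCenterOf Q) : z * z = 1 := by
  have hc : ∀ a ∈ Q ⊓ Subgroup.centralizer (Q : Set G), ∀ b ∈ Q ⊓ Subgroup.centralizer (Q : Set G),
      a * b = b * a := fun a ha b hb => ((Subgroup.mem_centralizer_iff.1 hb.2) a ha.1)
  have := (Cfsg.Agent.Lib.Helper52Basic.mem_omegaOne_of_comm hc h).2
  rwa [pow_two] at this

/-- a normal `p`-subgroup lies in every Sylow `p`-subgroup -/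
theorem le_of_isSylowIn_of_normal [Finite G] {p : ℕ} [Fact p.Prime] {S X N : Subgroup G} (hS : IsSylowIn p S X)
    (hNX : N ≤ X) (hn : X ≤ Subgroup.normalizer (N : Set G)) (hN : IsPGroup p N) : N ≤ S := by
  have h1 : IsPGroup p ↥(S ⊔ N : Subgroup G) := hS.2.1.to_sup_of_normal_right' hN (hS.1.trans hn)
  have h2 := hS.eq_of_le h1 (sup_le hS.1 hNX) le_sup_left
  rw [h2]; exact le_sup_right

theorem isSylowTwoIn_iff {S X : Subgroup G} : IsSylowTwoIn S X ↔ IsSylowIn 2 S X := by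
  unfold IsSylowTwoIn IsSylowIn
  rw [← Nat.not_even_iff_odd, even_iff_two_dvd]

section comp
variable [Finite G] {T K : Subgroup G}

theorem J_le_normalizer (hK : IsJComponent T K) :
    thompsonSubgroupOf 2 T ≤ Subgroup.normalizer (K : Set G) := by
  have := le_normalizer_commutator_right K (thompsonSubgroupOf 2 T)
  rwa [hK.2.1] at this

theorem X_le_normalizer (hK : IsJComponent T K) :
    K ⊔ thompsonSubgroupOf 2 T ≤ Subgroup.normalizer (K : Set G) :=
  sup_le Subgroup.le_normalizer (J_le_normalizer hK)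

theorem X_le_normalizer_wOf (hK : IsJComponent T K) :
    K ⊔ thompsonSubgroupOf 2 T ≤ Subgroup.normalizer (wOf K : Set G) :=
  (X_le_normalizer hK).trans (normalizer_le_normalizer_wOf K)

theorem X_le_normalizer_pCoreOf (hK : IsJComponent T K) :
    K ⊔ thompsonSubgroupOf 2 T ≤ Subgroup.normalizer (pCoreOf 2 K : Set G) :=
  (X_le_normalizer hK).trans (normalizer_le_normalizer_pCoreOf K)

/-- `C_W(K) = 1`. -/
theorem wOf_inf_centralizer (hK : IsJComponent T K) :
    wOf K ⊓ Subgroup.centralizer (K : Set G) = ⊥ := by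
  obtain ⟨h1, -, -, -, h5, h6⟩ := hK
  set W := wOf K with hW
  set V := omegaCenterOf (pCoreOf 2 K) with hV
  have hKW : K ≤ Subgroup.normalizer (W : Set G) :=
    Subgroup.le_normalizer.trans (normalizer_le_normalizer_wOf K)
  by_contra hne
  obtain ⟨⟨u, huW, huK⟩, hu1'⟩ := Subgroup.ne_bot_iff_exists_ne_one.1 hne
  have hu1 : u ≠ 1 := fun h => hu1' (Subtype.ext h)
  set U := Subgroup.zpowers u with hU
  have hUW : U ≤ W := by rw [hU, Subgroup.zpowers_le]; exact huW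
  have hUK : U ≤ Subgroup.centralizer (K : Set G) := by rw [hU, Subgroup.zpowers_le]; exact huK
  have hU2 : Nat.card U = 2 := by
    rw [hU, Nat.card_zpowers]
    exact orderOf_eq_prime (by rw [pow_two]; exact h6 u huW) hu1
  have hcomm : ∀ g ∈ K, ∀ x ∈ U, g * x * g⁻¹ = x := by
    intro g hg x hx
    have := (Subgroup.mem_centralizer_iff.1 (hUK hx)) g hg
    rw [this, mul_inv_cancel_right]
  -- odd order elements of K centralize W
  have step1 : ∀ g ∈ K, Odd (orderOf g) → ∀ w ∈ W, g * w * g⁻¹ = w := by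
    intro g hg hodd w hw
    have hgw : g * w * g⁻¹ ∈ W := (Subgroup.le_normalizer_iff.1 hKW) g hg w hw
    have hc : w⁻¹ * (g * w * g⁻¹) ∈ U := by
      rw [mul_mem_iff_of_card h5 hUW hU2 (W.inv_mem hw) hgw, inv_mem_iff]
      constructor
      · intro h; rw [hcomm g hg w h]; exact h
      · intro h
        have h2 := hcomm g⁻¹ (K.inv_mem hg) _ h
        have e : g⁻¹ * (g * w * g⁻¹) * g⁻¹⁻¹ = w := by group
        rw [e] at h2
        rw [h2]; exact h
    have h3 : g * w * g⁻¹ = w * (w⁻¹ * (g * w * g⁻¹)) := by group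
    have h4 : Commute g (w⁻¹ * (g * w * g⁻¹)) := by
      have := hcomm g hg _ hc
      show g * _ = _ * g
      calc g * (w⁻¹ * (g * w * g⁻¹)) = (g * (w⁻¹ * (g * w * g⁻¹)) * g⁻¹) * g := by group
        _ = (w⁻¹ * (g * w * g⁻¹)) * g := by rw [this]
    have h5' := eq_one_of_conj_eq_mul (p := 2) (j := 1) h3 h4 (Nat.coprime_two_right.2 hodd)
      (pow_orderOf_eq_one g) (by rw [pow_one, pow_two]; exact h6 _ (hUW hc))
    rw [h3, h5', mul_one]
  have step2 : ∀ g ∈ K, Odd (orderOf g) → g ∈ Subgroup.centralizer (V : Set G) := by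
    intro g hg hodd
    rw [Subgroup.mem_centralizer_iff]
    intro v hv
    have hc : v⁻¹ * (g * v * g⁻¹) ∈ W := by
      have : ⁅v⁻¹, g⁆ ∈ ⁅V, K⁆ := Subgroup.commutator_mem_commutator (V.inv_mem hv) hg
      rw [commutatorElement_def, inv_inv] at this
      have e : v⁻¹ * (g * v * g⁻¹) = v⁻¹ * g * v * g⁻¹ := by group
      rw [e]; exact this
    have h3 : g * v * g⁻¹ = v * (v⁻¹ * (g * v * g⁻¹)) := by group
    have h4 : Commute g (v⁻¹ * (g * v * g⁻¹)) := by
      have := step1 g hg hodd _ hc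
      show g * _ = _ * g
      calc g * (v⁻¹ * (g * v * g⁻¹)) = (g * (v⁻¹ * (g * v * g⁻¹)) * g⁻¹) * g := by group
        _ = (v⁻¹ * (g * v * g⁻¹)) * g := by rw [this]
    have h5' := eq_one_of_conj_eq_mul (p := 2) (j := 1) h3 h4 (Nat.coprime_two_right.2 hodd)
      (pow_orderOf_eq_one g) (by rw [pow_one, pow_two]; exact h6 _ hc)
    rw [h5', mul_one] at h3
    calc v * g = (g * v * g⁻¹) * g := by rw [h3]
      _ = g * v := by group
  have step3 : K ≤ Subgroup.centralizer (V : Set G) := by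
    conv_lhs => rw [← h1]
    rw [Subgroup.closure_le]
    rintro g ⟨hg, hodd⟩
    exact step2 g hg hodd
  have : W = ⊥ := by
    rw [hW]; unfold wOf
    rw [Subgroup.commutator_eq_bot_iff_le_centralizer, Subgroup.le_centralizer_iff]
    exact step3
  exact ne_bot_four h5 this

theorem not_K_le_centralizer_wOf (hK : IsJComponent T K) :
    ¬ K ≤ Subgroup.centralizer (wOf K : Set G) := by
  intro h
  have h1 := wOf_inf_centralizer hK
  rw [inf_eq_left.2 (Subgroup.le_centralizer_iff.1 h)] at h1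
  exact ne_bot_four hK.2.2.2.2.1 h1

theorem not_J_le_centralizer_wOf (hK : IsJComponent T K) :
    ¬ thompsonSubgroupOf 2 T ≤ Subgroup.centralizer (wOf K : Set G) := by
  intro h
  apply not_K_le_centralizer_wOf hK
  have hKN : K ≤ Subgroup.normalizer ((Subgroup.centralizer (wOf K : Set G) : Subgroup G) : Set G) :=
    (Subgroup.le_normalizer.trans (normalizer_le_normalizer_wOf K)).trans
      (normalizer_le_normalizer_centralizer _)
  conv_lhs => rw [← hK.2.1]
  rw [Subgroup.commutator_le]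
  intro k hk j hj
  rw [commutatorElement_def]
  exact Subgroup.mul_mem _ ((Subgroup.le_normalizer_iff.1 hKN) k hk j (h hj)) (Subgroup.inv_mem _ (h hj))

theorem K_le_sup_zpowers (hK : IsJComponent T K) {k : G} (hk : k ∈ K) (hkQ : k ∉ pCoreOf 2 K) :
    K ≤ pCoreOf 2 K ⊔ Subgroup.zpowers k := by
  have h3 := hK.2.2.1
  set Q := pCoreOf 2 K with hQ
  have hle : Q ⊔ Subgroup.zpowers k ≤ K := sup_le (pCoreOf_le K) (by rw [Subgroup.zpowers_le]; exact hk)
  have h1 := Subgroup.relIndex_mul_relIndex Q (Q ⊔ Subgroup.zpowers k) K le_sup_left hle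
  rw [h3] at h1
  have h2 : Q.relIndex (Q ⊔ Subgroup.zpowers k) ∣ 3 := ⟨_, h1.symm⟩
  rcases (Nat.dvd_prime Nat.prime_three).1 h2 with h | h
  · exfalso
    apply hkQ
    exact (Subgroup.relIndex_eq_one.1 h) (le_sup_right (a := Q) (Subgroup.mem_zpowers k))
  · rw [h] at h1
    have : (Q ⊔ Subgroup.zpowers k).relIndex K = 1 := by omega
    exact Subgroup.relIndex_eq_one.1 this

theorem pow_three_mem (hK : IsJComponent T K) {k : G} (hk : k ∈ K) : k ^ 3 ∈ pCoreOf 2 K := by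
  have h3 := hK.2.2.1
  have hn : ((pCoreOf 2 K).subgroupOf K).Normal :=
    (Subgroup.normal_subgroupOf_iff_le_normalizer (pCoreOf_le K)).2 (le_normalizer_pCoreOf K)
  have := ((pCoreOf 2 K).subgroupOf K).pow_index_mem (⟨k, hk⟩ : ↥K)
  have e : ((pCoreOf 2 K).subgroupOf K).index = 3 := h3
  rw [e] at this
  simpa [Subgroup.mem_subgroupOf] using this

theorem exists_not_mem_pCoreOf (hK : IsJComponent T K) : ∃ k ∈ K, k ∉ pCoreOf 2 K := by
  by_contra hcon
  have : K ≤ pCoreOf 2 K := fun k hk => by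
    by_contra h
    exact hcon ⟨k, hk, h⟩
  have h1 := Subgroup.relIndex_eq_one.2 this
  rw [hK.2.2.1] at h1
  omega

/-- `C_X(W)` is a 2-group. -/
theorem isPGroup_centralizer_wOf (hT : IsPGroup 2 T) (hK : IsJComponent T K) :
    IsPGroup 2 ↥((K ⊔ thompsonSubgroupOf 2 T) ⊓ Subgroup.centralizer (wOf K : Set G)) := by
  have : Fact (Nat.Prime 2) := ⟨Nat.prime_two⟩
  apply isPGroup_of_forall_coprime
  rintro c ⟨hcX, hcW⟩ n hn hcn
  have hJ2 : IsPGroup 2 ↥(thompsonSubgroupOf 2 T) := hT.to_le (thompsonSubgroupOf_le 2 T)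
  have hcK : c ∈ K := mem_of_mem_sup_of_coprime (J_le_normalizer hK) hJ2 hcX hn hcn
  by_cases hcQ : c ∈ pCoreOf 2 K
  · obtain ⟨j, hj⟩ := (isPGroup_pCoreOf (p := 2) K) ⟨c, hcQ⟩
    have hj' : c ^ (2 ^ j) = 1 := by simpa using congrArg Subtype.val hj
    exact eq_one_of_coprime_pow (Nat.Coprime.pow_right j hn) hcn hj'
  · exfalso
    apply not_K_le_centralizer_wOf hK
    refine (K_le_sup_zpowers hK hcK hcQ).trans (sup_le (pCoreOf_le_centralizer_wOf K) ?_)
    rw [Subgroup.zpowers_le]; exact hcW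

end comp

section sylow
variable [Finite G] {T K S : Subgroup G}

theorem thompson_eq (hK : IsJComponent T K) (hS : IsSylowIn 2 S (K ⊔ thompsonSubgroupOf 2 T))
    (hJS : thompsonSubgroupOf 2 T ≤ S) : thompsonSubgroupOf 2 S = thompsonSubgroupOf 2 T :=
  hK.2.2.2.1 S (isSylowTwoIn_iff.2 hS) hJS

theorem centralizer_wOf_le (hT : IsPGroup 2 T) (hK : IsJComponent T K)
    (hS : IsSylowIn 2 S (K ⊔ thompsonSubgroupOf 2 T)) :
    (K ⊔ thompsonSubgroupOf 2 T) ⊓ Subgroup.centralizer (wOf K : Set G) ≤ S := by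
  have : Fact (Nat.Prime 2) := ⟨Nat.prime_two⟩
  exact le_of_isSylowIn_of_normal hS inf_le_left
    (le_normalizer_inf_centralizer Subgroup.le_normalizer (X_le_normalizer_wOf hK))
    (isPGroup_centralizer_wOf hT hK)

theorem wOf_le_X (K J : Subgroup G) : wOf K ≤ K ⊔ J :=
  ((wOf_le_pCoreOf K).trans (pCoreOf_le K)).trans le_sup_left

theorem wOf_le_centralizer_wOf (hK : IsJComponent T K) : wOf K ≤ Subgroup.centralizer (wOf K : Set G) :=
  (wOf_le_pCoreOf K).trans (pCoreOf_le_centralizer_wOf K)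

theorem wOf_le_S (hT : IsPGroup 2 T) (hK : IsJComponent T K)
    (hS : IsSylowIn 2 S (K ⊔ thompsonSubgroupOf 2 T)) : wOf K ≤ S :=
  (le_inf (wOf_le_X K _) (wOf_le_centralizer_wOf hK)).trans (centralizer_wOf_le hT hK hS)

theorem pCoreOf_le_S (hT : IsPGroup 2 T) (hK : IsJComponent T K)
    (hS : IsSylowIn 2 S (K ⊔ thompsonSubgroupOf 2 T)) : pCoreOf 2 K ≤ S :=
  (le_inf ((pCoreOf_le K).trans le_sup_left) (pCoreOf_le_centralizer_wOf K)).trans
    (centralizer_wOf_le hT hK hS)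

omit [Finite G] in
theorem mem_of_relMax [Finite G] {A : Subgroup G} (hA : A ∈ relMax 2 S) {x : G} (hxS : x ∈ S)
    (hxA : x ∈ Subgroup.centralizer (A : Set G)) (hx2 : x * x = 1) : x ∈ A := by
  have h1 := Cfsg.Agent.Lib.Helper14ElemAb.elemAb_sup_zpowers A hA.2.1 x hxA (by rw [pow_two]; exact hx2)
  have h2 := hA.2.2 _ (sup_le hA.1 (by rw [Subgroup.zpowers_le]; exact hxS)) h1
  have h3 : A = A ⊔ Subgroup.zpowers x := Subgroup.eq_of_le_of_card_ge le_sup_left h2
  rw [h3]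
  exact le_sup_right (a := A) (Subgroup.mem_zpowers x)

theorem relMax_le_J (hK : IsJComponent T K) (hS : IsSylowIn 2 S (K ⊔ thompsonSubgroupOf 2 T))
    (hJS : thompsonSubgroupOf 2 T ≤ S) {A : Subgroup G} (hA : A ∈ relMax 2 S) :
    A ≤ thompsonSubgroupOf 2 T := by
  rw [← thompson_eq hK hS hJS, thompsonOf_eq]
  exact le_sSup hA

theorem omegaCenterOf_le_relMax (hK : IsJComponent T K) (hS : IsSylowIn 2 S (K ⊔ thompsonSubgroupOf 2 T))
    (hJS : thompsonSubgroupOf 2 T ≤ S) {A : Subgroup G} (hA : A ∈ relMax 2 S) :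
    omegaCenterOf (thompsonSubgroupOf 2 T) ≤ A := by
  intro z hz
  have h1 := omegaCenterOf_le _ hz
  refine mem_of_relMax hA (hJS h1.1) ?_ (sq_of_mem_omegaCenterOf hz)
  exact Subgroup.centralizer_le (relMax_le_J hK hS hJS hA) h1.2

theorem wOf_le_relMax (hT : IsPGroup 2 T) (hK : IsJComponent T K)
    (hS : IsSylowIn 2 S (K ⊔ thompsonSubgroupOf 2 T)) {A : Subgroup G} (hA : A ∈ relMax 2 S)
    (hAW : A ≤ Subgroup.centralizer (wOf K : Set G)) : wOf K ≤ A := by
  intro w hw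
  exact mem_of_relMax hA (wOf_le_S hT hK hS hw) (Subgroup.le_centralizer_iff.1 hAW hw) (hK.2.2.2.2.2 w hw)

/-- Thompson replacement on the four-group `W`. -/
theorem exists_replacement (hT : IsPGroup 2 T) (hK : IsJComponent T K)
    (hS : IsSylowIn 2 S (K ⊔ thompsonSubgroupOf 2 T)) {A : Subgroup G} (hA : A ∈ relMax 2 S)
    (hAW : ¬ A ≤ Subgroup.centralizer (wOf K : Set G)) :
    ∃ w ∈ wOf K, (A ⊓ Subgroup.centralizer (wOf K : Set G)) ⊔ Subgroup.zpowers w ∈ relMax 2 S := by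
  have h5 := hK.2.2.2.2.1
  have h6 := hK.2.2.2.2.2
  set W := wOf K with hW
  have hA2 : IsPGroup 2 A := hS.2.1.to_le hA.1
  have hAN : A ≤ Subgroup.normalizer (W : Set G) := (hA.1.trans hS.1).trans (X_le_normalizer_wOf hK)
  have hcard := card_eq_two_mul h5 h6 hA2 hAN hAW
  have := hA.2.1.1
  -- an element of W outside A
  obtain ⟨w, hwW, hwA⟩ : ∃ w ∈ W, w ∉ A := by
    by_contra hcon
    apply hAW
    have hWA : W ≤ A := fun w hw => by
      by_contra h
      exact hcon ⟨w, hw, h⟩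
    intro a ha
    rw [Subgroup.mem_centralizer_iff]
    intro w hw
    exact setLike_mul_comm (hWA hw) ha
  set A₀ := A ⊓ Subgroup.centralizer (W : Set G) with hA₀
  have hel₀ : IsElementaryAbelian 2 A₀ := Cfsg.Agent.Lib.Helper14ElemAb.elemAb_mono inf_le_left hA.2.1
  have hwc : w ∈ Subgroup.centralizer (A₀ : Set G) :=
    (Subgroup.le_centralizer_iff.1 (inf_le_right : A₀ ≤ Subgroup.centralizer (W : Set G))) hwW
  have hel := Cfsg.Agent.Lib.Helper14ElemAb.elemAb_sup_zpowers A₀ hel₀ w hwc (by rw [pow_two]; exact h6 w hwW)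
  refine ⟨w, hwW, sup_le (inf_le_left.trans hA.1) (by rw [Subgroup.zpowers_le]; exact wOf_le_S hT hK hS hwW),
    hel, ?_⟩
  intro B hBS hB
  refine (hA.2.2 B hBS hB).trans ?_
  rw [hcard]
  have hlt : A₀ < A₀ ⊔ Subgroup.zpowers w := by
    rw [SetLike.lt_iff_le_and_exists]
    exact ⟨le_sup_left, w, le_sup_right (a := A₀) (Subgroup.mem_zpowers w), fun h => hwA h.1⟩
  obtain ⟨c, hc⟩ := Subgroup.card_dvd_of_le hlt.le
  have hpos : 0 < Nat.card A₀ := Nat.card_pos
  have hne : Nat.card ↥(A₀ ⊔ Subgroup.zpowers w) ≠ Nat.card A₀ := by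
    intro h
    exact absurd (Subgroup.eq_of_le_of_card_ge hlt.le h.le) hlt.ne
  have hpos' : 0 < Nat.card ↥(A₀ ⊔ Subgroup.zpowers w) := Nat.card_pos
  rw [hc] at hne hpos' ⊢
  have hc2 : 2 ≤ c := by
    rcases c with _ | _ | c
    · simp at hpos'
    · simp at hne
    · omega
  exact Nat.mul_le_mul_left _ hc2

theorem exists_relMax_centralizing (hT : IsPGroup 2 T) (hK : IsJComponent T K)
    (hS : IsSylowIn 2 S (K ⊔ thompsonSubgroupOf 2 T)) :
    ∃ A ∈ relMax 2 S, A ≤ Subgroup.centralizer (wOf K : Set G) := by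
  obtain ⟨A, hA⟩ := exists_relMax 2 S
  by_cases hAW : A ≤ Subgroup.centralizer (wOf K : Set G)
  · exact ⟨A, hA, hAW⟩
  · obtain ⟨w, hw, hB⟩ := exists_replacement hT hK hS hA hAW
    refine ⟨_, hB, sup_le inf_le_right ?_⟩
    rw [Subgroup.zpowers_le]
    exact wOf_le_centralizer_wOf hK hw

theorem wOf_le_J (hT : IsPGroup 2 T) (hK : IsJComponent T K) : wOf K ≤ thompsonSubgroupOf 2 T := by
  have : Fact (Nat.Prime 2) := ⟨Nat.prime_two⟩
  obtain ⟨S, hS, hJS⟩ := exists_isSylowIn_ge (p := 2) (Q := thompsonSubgroupOf 2 T)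
    (H := K ⊔ thompsonSubgroupOf 2 T) (hT.to_le (thompsonSubgroupOf_le 2 T)) le_sup_right
  obtain ⟨A, hA, hAW⟩ := exists_relMax_centralizing hT hK hS
  exact (wOf_le_relMax hT hK hS hA hAW).trans (relMax_le_J hK hS hJS hA)

/-- the intersection of the members of `𝒜(S)` centralizing `W` -/
def B0 (S W : Subgroup G) : Subgroup G :=
  sInf {A | A ∈ relMax 2 S ∧ A ≤ Subgroup.centralizer (W : Set G)}

theorem family_cj (hT : IsPGroup 2 T) (hK : IsJComponent T K)
    (hS : IsSylowIn 2 S (K ⊔ thompsonSubgroupOf 2 T)) {A : Subgroup G} (hA : A ∈ relMax 2 S)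
    (hAW : A ≤ Subgroup.centralizer (wOf K : Set G)) {y : G} (hy : y ∈ K ⊔ thompsonSubgroupOf 2 T) :
    cj y A ∈ relMax 2 S ∧ cj y A ≤ Subgroup.centralizer (wOf K : Set G) := by
  have h1 : cj y A ≤ Subgroup.centralizer (wOf K : Set G) := by
    have e : cj y (wOf K) = wOf K := mem_normalizer_iff_cj.1 (X_le_normalizer_wOf hK hy)
    have := centralizer_cj y (wOf K)
    rw [e] at this
    rw [this]
    exact cj_mono hAW
  have h2 : cj y A ≤ K ⊔ thompsonSubgroupOf 2 T := by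
    rw [← cj_eq_self_of_mem hy]
    exact cj_mono (hA.1.trans hS.1)
  refine ⟨⟨(le_inf h2 h1).trans (centralizer_wOf_le hT hK hS),
    Cfsg.Agent.Lib.Helper13Thompson.el_map hA.2.1 _, ?_⟩, h1⟩
  intro B hBS hB
  rw [card_cj]
  exact hA.2.2 B hBS hB

theorem X_le_normalizer_B0 (hT : IsPGroup 2 T) (hK : IsJComponent T K)
    (hS : IsSylowIn 2 S (K ⊔ thompsonSubgroupOf 2 T)) :
    K ⊔ thompsonSubgroupOf 2 T ≤ Subgroup.normalizer (B0 S (wOf K) : Set G) := by
  intro x hx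
  rw [mem_normalizer_iff_cj]
  apply cj_eq_of_le
  apply le_sInf
  rintro A ⟨hA, hAW⟩
  rw [cj_le_iff]
  exact sInf_le (family_cj hT hK hS hA hAW (Subgroup.inv_mem _ hx))

theorem omegaCenterOf_le_B0 (hK : IsJComponent T K) (hS : IsSylowIn 2 S (K ⊔ thompsonSubgroupOf 2 T))
    (hJS : thompsonSubgroupOf 2 T ≤ S) : omegaCenterOf (thompsonSubgroupOf 2 T) ≤ B0 S (wOf K) :=
  le_sInf fun _ hA => omegaCenterOf_le_relMax hK hS hJS hA.1

theorem comm_relMax_B0 (hT : IsPGroup 2 T) (hK : IsJComponent T K)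
    (hS : IsSylowIn 2 S (K ⊔ thompsonSubgroupOf 2 T)) {A : Subgroup G} (hA : A ∈ relMax 2 S) :
    ∀ a ∈ A, ∀ b ∈ B0 S (wOf K), a * b * a⁻¹ * b⁻¹ ∈ wOf K := by
  have := hA.2.1.1
  have hAN : A ≤ Subgroup.normalizer (wOf K : Set G) := (hA.1.trans hS.1).trans (X_le_normalizer_wOf hK)
  by_cases hAW : A ≤ Subgroup.centralizer (wOf K : Set G)
  · intro a ha b hb
    have hbA : b ∈ A := (sInf_le (show A ∈ {A | A ∈ relMax 2 S ∧ A ≤ Subgroup.centralizer (wOf K : Set G)} from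
      ⟨hA, hAW⟩)) hb
    have : a * b = b * a := setLike_mul_comm ha hbA
    rw [this]
    simp
  · obtain ⟨w, hw, hB⟩ := exists_replacement hT hK hS hA hAW
    have hBW : (A ⊓ Subgroup.centralizer (wOf K : Set G)) ⊔ Subgroup.zpowers w
        ≤ Subgroup.centralizer (wOf K : Set G) := by
      refine sup_le inf_le_right ?_
      rw [Subgroup.zpowers_le]
      exact wOf_le_centralizer_wOf hK hw
    set Y := (Cfsg.Agent.Lib.Helper52Basic.stabSec (Subgroup.normalizer (wOf K : Set G)) A (wOf K) le_rfl).map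
      (Subgroup.normalizer (wOf K : Set G)).subtype with hY
    have h1 : (A ⊓ Subgroup.centralizer (wOf K : Set G)) ⊔ Subgroup.zpowers w ≤ Y := by
      apply sup_le
      · intro a₀ ha₀
        refine ⟨⟨a₀, hAN ha₀.1⟩, ?_, rfl⟩
        intro x hx
        have : a₀ * x = x * a₀ := setLike_mul_comm ha₀.1 hx
        show a₀ * x * a₀⁻¹ * x⁻¹ ∈ wOf K
        rw [this]
        simp
      · rw [Subgroup.zpowers_le]
        refine ⟨⟨w, Subgroup.le_normalizer hw⟩, ?_, rfl⟩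
        intro x hx
        show w * x * w⁻¹ * x⁻¹ ∈ wOf K
        have e : w * x * w⁻¹ * x⁻¹ = w * (x * w⁻¹ * x⁻¹) := by group
        rw [e]
        exact Subgroup.mul_mem _ hw ((Subgroup.le_normalizer_iff.1 hAN) x hx _ (Subgroup.inv_mem _ hw))
    intro a ha b hb
    have hbB : b ∈ (A ⊓ Subgroup.centralizer (wOf K : Set G)) ⊔ Subgroup.zpowers w :=
      (sInf_le (show _ ∈ {A | A ∈ relMax 2 S ∧ A ≤ Subgroup.centralizer (wOf K : Set G)} from ⟨hB, hBW⟩)) hb
    obtain ⟨y, hy, rfl⟩ := h1 hbB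
    have h2 := hy a ha
    have e : a * (y : G) * a⁻¹ * (y : G)⁻¹ = ((y : G) * a * (y : G)⁻¹ * a⁻¹)⁻¹ := by group
    show a * (y : G) * a⁻¹ * (y : G)⁻¹ ∈ wOf K
    rw [e]
    exact Subgroup.inv_mem _ h2

/-- `[B₀, K] ≤ W`. -/
theorem comm_K_B0 (hT : IsPGroup 2 T) (hK : IsJComponent T K)
    (hS : IsSylowIn 2 S (K ⊔ thompsonSubgroupOf 2 T)) (hJS : thompsonSubgroupOf 2 T ≤ S) :
    ∀ g ∈ K, ∀ b ∈ B0 S (wOf K), g * b * g⁻¹ * b⁻¹ ∈ wOf K := by
  set X := K ⊔ thompsonSubgroupOf 2 T with hX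
  set M := Cfsg.Agent.Lib.Helper52Basic.stabSec X (B0 S (wOf K)) (wOf K) (X_le_normalizer_wOf hK) with hM
  have hMn : M.Normal := Cfsg.Agent.Lib.Helper52Basic.stabSec_normal _ _ _ _ (X_le_normalizer_B0 hT hK hS)
  have hJM : thompsonSubgroupOf 2 T ≤ M.map X.subtype := by
    rw [← thompson_eq hK hS hJS, thompsonOf_eq]
    apply sSup_le
    intro A hA a ha
    exact ⟨⟨a, hS.1 (hA.1 ha)⟩, comm_relMax_B0 hT hK hS hA a ha, rfl⟩
  have hKM : K ≤ M.map X.subtype := by
    conv_lhs => rw [← hK.2.1]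
    rw [Subgroup.commutator_le]
    intro k hk j hj
    obtain ⟨j', hj', rfl⟩ := hJM hj
    have hkX : k ∈ X := le_sup_left (b := thompsonSubgroupOf 2 T) hk
    refine ⟨(⟨k, hkX⟩ * j' * ⟨k, hkX⟩⁻¹) * j'⁻¹, M.mul_mem (hMn.conj_mem j' hj' _) (M.inv_mem hj'), ?_⟩
    rw [commutatorElement_def]
    rfl
  intro g hg b hb
  obtain ⟨g', hg', rfl⟩ := hKM hg
  exact hg' b hb

end sylow

end Cfsg.Agent.Lib.Helper55JStruct
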