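import Cfsg.Prelude.Def_BaumannBlocks
import Cfsg.Agent.Lib.Helper55JStruct

set_option autoImplicit false

/-! Baumann blocks: basic facts. -/

namespace Cfsg.Agent.Lib.Helper55BB

open Subgroup Cfsg Cfsg.Agent.Lib.Helper40Sylow Cfsg.Agent.Lib.Helper55Core
  Cfsg.Agent.Lib.Helper13Thompson2
open scoped commutatorElement

variable {G : Type*} [Group G]

theorem Om_cj (p : ℕ) (S : Subgroup G) (g : G) : Om p (cj g S) = cj g (Om p S) := by
  apply le_antisymm _ (Om_cj_le p S g)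
  have h := Om_cj_le p (cj g S) g⁻¹
  rw [cj_inv_cj, cj_le_iff, inv_inv] at h
  exact h

theorem baumannOf_eq (p : ℕ) (T : Subgroup G) :
    baumannSubgroupOf p T = T ⊓ centralizer (Om p (thompsonSubgroupOf p T) : Set G) := rfl

theorem baumannOf_cj (p : ℕ) (T : Subgroup G) (g : G) :
    baumannSubgroupOf p (cj g T) = cj g (baumannSubgroupOf p T) := by
  rw [baumannOf_eq, baumannOf_eq, thompsonOf_cj, Om_cj, centralizer_cj, cj_inf]

theorem baumannOf_le (p : ℕ) (T : Subgroup G) : baumannSubgroupOf p T ≤ T := inf_le_left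

theorem thompsonOf_le_baumannOf (p : ℕ) (T : Subgroup G) :
    thompsonSubgroupOf p T ≤ baumannSubgroupOf p T := by
  rw [baumannOf_eq]
  refine le_inf (thompsonOf_le_self p T) ?_
  rw [le_centralizer_iff]
  exact (Om_le p _).trans inf_le_right

theorem normalizer_le_normalizer_baumannOf (p : ℕ) (T : Subgroup G) :
    normalizer (T : Set G) ≤ normalizer (baumannSubgroupOf p T : Set G) := by
  intro g hg
  rw [mem_normalizer_iff_cj] at hg ⊢
  rw [← baumannOf_cj, hg]

/-- `J(T) ≤ T'` for a conjugate `T'` of `T` forces `J(T') = J(T)`. -/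
theorem thompsonOf_eq_of_le_cj [Finite G] {p : ℕ} {T : Subgroup G} {g : G}
    (h : thompsonSubgroupOf p T ≤ cj g T) :
    thompsonSubgroupOf p (cj g T) = thompsonSubgroupOf p T := by
  symm
  apply Subgroup.eq_of_le_of_card_ge
  · conv_lhs => rw [thompsonOf_eq]
    apply sSup_le
    intro A hA
    rw [thompsonOf_eq]
    apply le_sSup
    refine ⟨?_, hA.2.1, ?_⟩
    · refine le_trans ?_ h
      rw [thompsonOf_eq]; exact le_sSup hA
    · intro D hD hDe
      rw [← card_cj g⁻¹ D]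
      apply hA.2.2 _ _ (Cfsg.Agent.Lib.Helper13Thompson.el_map hDe _)
      rw [cj_le_iff, inv_inv]; exact hD
  · rw [thompsonOf_cj, card_cj]

theorem baumannOf_eq_of_le_cj [Finite G] {p : ℕ} {T : Subgroup G} {g : G}
    (h : baumannSubgroupOf p T ≤ cj g T) :
    baumannSubgroupOf p (cj g T) = baumannSubgroupOf p T := by
  have hJ := thompsonOf_eq_of_le_cj ((thompsonOf_le_baumannOf p T).trans h)
  symm
  apply Subgroup.eq_of_le_of_card_ge
  · rw [baumannOf_eq p (cj g T), hJ]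
    exact le_inf h inf_le_right
  · rw [baumannOf_cj, card_cj]

/-- a `p`-subgroup normalized by `B(T)` normalizes `B(T)` (`T` Sylow). -/
theorem le_normalizer_baumannOf [Finite G] {p : ℕ} [Fact p.Prime] (T : Sylow p G) {Q : Subgroup G}
    (hQ : IsPGroup p Q) (hBQ : baumannSubgroupOf p (T : Subgroup G) ≤ normalizer (Q : Set G)) :
    Q ≤ normalizer (baumannSubgroupOf p (T : Subgroup G) : Set G) := by
  have hB : IsPGroup p (baumannSubgroupOf p (T : Subgroup G)) := T.2.to_le (baumannOf_le p _)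
  have hP : IsPGroup p ↥(Q ⊔ baumannSubgroupOf p (T : Subgroup G) : Subgroup G) :=
    hQ.to_sup_of_normal_left' hB hBQ
  obtain ⟨x, -, hx⟩ := (isSylowIn_top T).exists_conj_le hP le_top
  rw [cj_le_iff] at hx
  have h1 := baumannOf_eq_of_le_cj (le_sup_right.trans hx)
  rw [← h1]
  exact ((le_sup_left.trans hx).trans le_normalizer).trans (normalizer_le_normalizer_baumannOf p _)

/-- general form of S2941 -/
theorem le_normalizer_of_commutator_eq [Finite G] {p : ℕ} {K J Q : Subgroup G} (hJ2 : IsPGroup p ↥J)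
    (hK1 : closure {g : G | g ∈ K ∧ (orderOf g).Coprime p} = K) (hK2 : ⁅K, J⁆ = K)
    (hQ1 : K ≤ normalizer (Q : Set G)) (hQ2 : Q ≤ normalizer (J : Set G)) :
    Q ≤ normalizer (K : Set G) := by
  have hJK : J ≤ normalizer (K : Set G) := by
    have := le_normalizer_commutator_right K J
    rwa [hK2] at this
  have h2 : ∀ q ∈ Q, ∀ x ∈ K, q * x * q⁻¹ ∈ K ⊔ J := by
    intro q hq
    have h3 : (⁅K, J⁆).map (MulAut.conj q).toMonoidHom ≤ K ⊔ J := by
      rw [Subgroup.commutator_def, MonoidHom.map_closure, closure_le]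
      rintro _ ⟨_, ⟨k, hk, j, hj, rfl⟩, rfl⟩
      have hq' : k⁻¹ * q * k ∈ Q := (mem_normalizer_iff''.1 (hQ1 hk) q).1 hq
      have h4 : (k⁻¹ * q * k) * j * (k⁻¹ * q * k)⁻¹ ∈ J := (le_normalizer_iff.1 hQ2) _ hq' j hj
      have h5 : q * j⁻¹ * q⁻¹ ∈ J := (le_normalizer_iff.1 hQ2) _ hq _ (J.inv_mem hj)
      have e : (MulAut.conj q).toMonoidHom ⁅k, j⁆
          = k * ((k⁻¹ * q * k) * j * (k⁻¹ * q * k)⁻¹) * k⁻¹ * (q * j⁻¹ * q⁻¹) := by
        simp only [MulEquiv.coe_toMonoidHom, MulAut.conj_apply, commutatorElement_def]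
        group
      rw [e]
      have hkS : k ∈ K ⊔ J := le_sup_left (b := J) hk
      exact (K ⊔ J).mul_mem ((K ⊔ J).mul_mem ((K ⊔ J).mul_mem hkS (le_sup_right (a := K) h4))
        ((K ⊔ J).inv_mem hkS)) (le_sup_right (a := K) h5)
    intro x hx
    rw [hK2] at h3
    exact h3 ⟨x, hx, rfl⟩
  rw [le_normalizer_iff]
  intro q hq
  have h6 : K.map (MulAut.conj q).toMonoidHom ≤ K := by
    conv_lhs => rw [← hK1]
    rw [MonoidHom.map_closure, closure_le]
    rintro _ ⟨g, ⟨hgK, hgodd⟩, rfl⟩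
    have h7 : q * g * q⁻¹ ∈ K ⊔ J := h2 q hq g hgK
    have h8 : (q * g * q⁻¹) ^ orderOf g = 1 := by
      rw [conj_pow, pow_orderOf_eq_one]; simp
    exact Cfsg.Agent.Lib.Helper55JComp.mem_of_mem_sup_of_coprime hJK hJ2 h7 hgodd h8
  intro x hx
  exact h6 ⟨x, hx, rfl⟩

theorem pResidualOf_eq (p : ℕ) (E : Subgroup G) :
    pResidualOf p E = closure {g : G | g ∈ E ∧ (orderOf g).Coprime p} := by
  unfold pResidualOf pResidual
  rw [MonoidHom.map_closure]
  congr 1
  ext y
  constructor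
  · rintro ⟨x, hx, rfl⟩
    refine ⟨x.2, ?_⟩
    have : orderOf (E.subtype x) = orderOf x := orderOf_injective _ E.subtype_injective x
    rw [this]; exact hx
  · rintro ⟨hy, hc⟩
    refine ⟨⟨y, hy⟩, ?_, rfl⟩
    have : orderOf (E.subtype ⟨y, hy⟩) = orderOf (⟨y, hy⟩ : E) :=
      orderOf_injective _ E.subtype_injective _
    show (orderOf (⟨y, hy⟩ : E)).Coprime p
    rw [← this]; exact hc

theorem block_le_normalizer [Finite G] {p : ℕ} [Fact p.Prime] (T : Sylow p G) {E Q : Subgroup G}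
    (hE : IsBaumannBlock p (T : Subgroup G) E) (hQ : IsPGroup p ↥Q)
    (hBQ : baumannSubgroupOf p (T : Subgroup G) ≤ normalizer (Q : Set G))
    (hEQ : E ≤ normalizer (Q : Set G)) : Q ≤ normalizer (E : Set G) :=
  le_normalizer_of_commutator_eq (T.2.to_le (baumannOf_le p _))
    (by rw [← pResidualOf_eq]; exact hE.1) hE.2.1 hEQ (le_normalizer_baumannOf T hQ hBQ)

end Cfsg.Agent.Lib.Helper55BB
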