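import Cfsg.Agent.S1324
import Cfsg.Agent.Lib.Helper55HH
import Cfsg.Agent.Lib.Helper55BB
import Cfsg.Agent.Lib.Helper55JComp
import Cfsg.Agent.Lib.Helper3PGroup
import Cfsg.Agent.Lib.Helper14PSolvQ
import Cfsg.Agent.Lib.Helper56Iso2
import Cfsg.Agent.Lib.Helper2Residual

set_option autoImplicit false
set_option linter.unusedSectionVars false

/-! A `p`-subgroup `A` of a `p`-soluble group with `Φ(A) ≤ O_p(M)`, `A ≰ O_p(M)`: the subgroup generated by
two suitable conjugates (Kurzweil–Stellmacher). -/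

namespace Cfsg.Agent.Lib.Helper55TC

open Cfsg Subgroup Cfsg.Agent.Lib.Helper55Core
open scoped commutatorElement

variable {M : Type*} [Group M] [Finite M] {p : ℕ} [Fact p.Prime]

/-- `O_{p,p'}(M)` -/
def KK (p : ℕ) (M : Type*) [Group M] : Subgroup M :=
  (pPrimeCore p (M ⧸ pCore p M)).comap (QuotientGroup.mk' (pCore p M))

instance : (KK p M).Normal := by unfold KK; infer_instance

/-- the centralizer of `B` modulo `O_p(M)` -/
def Cen (p : ℕ) (B : Subgroup M) : Subgroup M :=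
  (centralizer ((B.map (QuotientGroup.mk' (pCore p M)) : Subgroup _) : Set _)).comap
    (QuotientGroup.mk' (pCore p M))

theorem mem_Cen {B : Subgroup M} {y : M} : y ∈ Cen p B ↔ ∀ b ∈ B,
    QuotientGroup.mk' (pCore p M) b * QuotientGroup.mk' (pCore p M) y
      = QuotientGroup.mk' (pCore p M) y * QuotientGroup.mk' (pCore p M) b := by
  unfold Cen
  rw [mem_comap, mem_centralizer_iff]
  constructor
  · intro h b hb
    exact h _ ⟨b, hb, rfl⟩
  · rintro h _ ⟨b, hb, rfl⟩
    exact h b hb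

theorem Cen_anti {B C : Subgroup M} (h : B ≤ C) : Cen p C ≤ Cen p B := by
  intro y hy
  rw [mem_Cen] at hy ⊢
  exact fun b hb => hy b (h hb)

theorem mk_eq_one {x : M} : QuotientGroup.mk' (pCore p M) x = 1 ↔ x ∈ pCore p M :=
  QuotientGroup.eq_one_iff x

theorem pgroup_le {P : Subgroup M} (hP : IsPGroup p P) (hPK : P ≤ KK p M) : P ≤ pCore p M := by
  intro g hg
  have h1 : QuotientGroup.mk' (pCore p M) g ∈ pPrimeCore p (M ⧸ pCore p M) := hPK hg
  have h2 := Cfsg.Agent.Lib.Helper40Cores.mem_pPrimeCore_orderOf_coprime h1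
  obtain ⟨k, hk⟩ := hP ⟨g, hg⟩
  have hk' : g ^ p ^ k = 1 := congrArg Subtype.val hk
  have h3 : (QuotientGroup.mk' (pCore p M) g) ^ p ^ k = 1 := by rw [← map_pow, hk', map_one]
  rw [← mk_eq_one]
  exact eq_one_of_coprime_pow (h2.pow_right k) (pow_orderOf_eq_one _) h3

theorem not_KK_le_Cen (hM : IsPSolvable p M) {A : Subgroup M} (hA : IsPGroup p A)
    (hnot : ¬ A ≤ pCore p M) : ¬ KK p M ≤ Cen p A := by
  intro h
  apply hnot
  apply pgroup_le hA
  intro a ha
  have h1 : QuotientGroup.mk' (pCore p M) a ∈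
      centralizer (pPrimeCore p (M ⧸ pCore p M) : Set (M ⧸ pCore p M)) := by
    rw [mem_centralizer_iff]
    intro z hz
    obtain ⟨y, rfl⟩ := QuotientGroup.mk'_surjective (pCore p M) z
    have hy : y ∈ KK p M := hz
    exact ((mem_Cen.1 (h hy)) a ha).symm
  exact Cfsg.Agent.Lib.Helper55HH.centralizer_pPrimeCore_le
    (Cfsg.Agent.Lib.Helper14PSolvQ.isPSolvable_quotient _ hM)
    Cfsg.Agent.Lib.Helper56Iso2.pCore_quot_eq_bot h1

/-- conjugate -/
abbrev cj (x : M) (A : Subgroup M) : Subgroup M := A.map (MulAut.conj x).toMonoidHom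

theorem conj_mem_cj {x a : M} {A : Subgroup M} (ha : a ∈ A) : x * a * x⁻¹ ∈ cj x A :=
  ⟨a, ha, by simp⟩

theorem cj_le {x : M} {A H : Subgroup M} (h : ∀ a ∈ A, x * a * x⁻¹ ∈ H) : cj x A ≤ H := by
  rintro _ ⟨a, ha, rfl⟩
  simpa using h a ha

theorem le_normalizer_pResidualOf (L : Subgroup M) : L ≤ normalizer (pResidualOf p L : Set M) := by
  have h := le_normalizer_map (H := pResidual p ↥L) L.subtype
  have := Cfsg.Agent.Lib.Helper2Residual.pResidual_normal (G := ↥L) p
  rw [normalizer_eq_top, ← MonoidHom.range_eq_map, Subgroup.range_subtype] at h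
  exact h

theorem pResidualOf_le' (L : Subgroup M) : pResidualOf p L ≤ L := map_subtype_le _

/-- `L ≤ N A` with `A` a `p`-group normalizing `N` gives `O^p(L) ≤ N`. -/
theorem pResidualOf_le_of_le_sup {L N A : Subgroup M} (hA : IsPGroup p A)
    (hAN : A ≤ normalizer (N : Set M)) (hL : L ≤ N ⊔ A) : pResidualOf p L ≤ N := by
  rw [Cfsg.Agent.Lib.Helper55BB.pResidualOf_eq, closure_le]
  rintro g ⟨hgL, hg⟩
  exact Cfsg.Agent.Lib.Helper55JComp.mem_of_mem_sup_of_coprime hAN hA (hL hgL) hg (pow_orderOf_eq_one g)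

theorem exists_pow_mem_pResidualOf {L : Subgroup M} {y : M} (hy : y ∈ L) :
    ∃ k : ℕ, y ^ p ^ k ∈ pResidualOf p L := by
  obtain ⟨k, hk⟩ := Cfsg.Agent.Lib.Helper2Residual.exists_pow_mem_pResidual (G := ↥L)
    (Fact.out : p.Prime) ⟨y, hy⟩
  exact ⟨k, ⟨_, hk, rfl⟩⟩

theorem sup_cj_le_sup {A N : Subgroup M} {x : M} (h : ∀ a ∈ A, x * a * x⁻¹ * a⁻¹ ∈ N) :
    A ⊔ cj x A ≤ N ⊔ A := by
  refine sup_le le_sup_right (cj_le fun a ha => ?_)
  have e : x * a * x⁻¹ = (x * a * x⁻¹ * a⁻¹) * a := by group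
  rw [e]
  exact (N ⊔ A).mul_mem (le_sup_left (b := A) (h a ha)) (le_sup_right (a := N) ha)

theorem pResidualOf_le_KK {A : Subgroup M} (hA : IsPGroup p A) {x : M} (hx : x ∈ KK p M) :
    pResidualOf p (A ⊔ cj x A) ≤ KK p M := by
  apply pResidualOf_le_of_le_sup hA (by rw [normalizer_eq_top]; exact le_top)
  apply sup_cj_le_sup
  intro a ha
  have e : x * a * x⁻¹ * a⁻¹ = x * (a * x⁻¹ * a⁻¹) := by group
  rw [e]
  exact (KK p M).mul_mem hx ((inferInstance : (KK p M).Normal).conj_mem _ ((KK p M).inv_mem hx) a)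

/-- Step 1: `L ∩ K` is not contained in the centralizer of `A` modulo `O_p(M)`. -/
theorem exists_mem_inf_not_mem_Cen {A : Subgroup M} (hA : IsPGroup p A) {x : M} (hx : x ∈ KK p M)
    (hxC : x ∉ Cen p A) : ∃ y ∈ (A ⊔ cj x A) ⊓ KK p M, y ∉ Cen p A := by
  by_contra hcon
  push Not at hcon
  apply hxC
  rw [mem_Cen]
  intro a ha
  set π := QuotientGroup.mk' (pCore p M) with hπ
  set d := x * a * x⁻¹ * a⁻¹ with hd
  have hdL : d ∈ A ⊔ cj x A :=
    (A ⊔ cj x A).mul_mem (le_sup_right (a := A) (conj_mem_cj ha)) (le_sup_left (b := cj x A) (A.inv_mem ha))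
  have hdK : d ∈ KK p M := by
    have e : d = x * (a * x⁻¹ * a⁻¹) := by rw [hd]; group
    rw [e]
    exact (KK p M).mul_mem hx ((inferInstance : (KK p M).Normal).conj_mem _ ((KK p M).inv_mem hx) a)
  have hdC := mem_Cen.1 (hcon d ⟨hdL, hdK⟩) a ha
  obtain ⟨k, hk⟩ := hA ⟨a, ha⟩
  have hk' : a ^ p ^ k = 1 := congrArg Subtype.val hk
  have h1 : (π d * π a) ^ p ^ k = 1 := by
    have e : π d * π a = π (x * a * x⁻¹) := by rw [← map_mul, hd]; congr 1; group
    rw [e, ← map_pow, conj_pow, hk']; simp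
  have hcomm : Commute (π d) (π a) := hdC.symm
  rw [hcomm.mul_pow, ← map_pow π a, hk', map_one, mul_one] at h1
  have h2 := Cfsg.Agent.Lib.Helper40Cores.mem_pPrimeCore_orderOf_coprime (show π d ∈ _ from hdK)
  have h3 : π d = 1 := eq_one_of_coprime_pow (h2.pow_right k) (pow_orderOf_eq_one _) h1
  have h4 : π x * π a * (π x)⁻¹ * (π a)⁻¹ = 1 := by
    rw [← h3, hd]; simp
  have h5 : π x * π a = π a * π x := by
    have := congrArg (fun t => t * π a * π x) h4
    simpa [mul_assoc] using this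
  exact h5.symm

/-- Step 1': `O^p(L)` is not contained in the centralizer of `A` modulo `O_p(M)`. -/
theorem exists_mem_pResidualOf_not_mem_Cen {A : Subgroup M} (hA : IsPGroup p A) {x : M}
    (hx : x ∈ KK p M) (hxC : x ∉ Cen p A) : ∃ y ∈ pResidualOf p (A ⊔ cj x A), y ∉ Cen p A := by
  obtain ⟨y, ⟨hyL, hyK⟩, hyC⟩ := exists_mem_inf_not_mem_Cen hA hx hxC
  obtain ⟨k, hk⟩ := exists_pow_mem_pResidualOf (p := p) hyL
  refine ⟨_, hk, fun hC => hyC ?_⟩
  set π := QuotientGroup.mk' (pCore p M) with hπ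
  have h2 := Cfsg.Agent.Lib.Helper40Cores.mem_pPrimeCore_orderOf_coprime (show π y ∈ _ from hyK)
  obtain ⟨m, hm⟩ := exists_pow_eq_self_of_coprime (x := π y) (n := p ^ k) (h2.pow_right k).symm
  have h3 : (y ^ p ^ k) ^ m ∈ Cen p A := (Cen p A).pow_mem hC m
  rw [mem_Cen] at h3 ⊢
  intro b hb
  have := h3 b hb
  rwa [map_pow, map_pow, hm] at this

theorem commutator_le_of_le_Cen {B L : Subgroup M} (h : L ≤ Cen p B) : ⁅B, L⁆ ≤ pCore p M := by
  rw [commutator_le]
  intro b hb l hl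
  have h1 := mem_Cen.1 (h hl) b hb
  rw [← mk_eq_one, commutatorElement_def, map_mul, map_mul, map_mul, h1, map_inv, map_inv]
  group

theorem mem_Cen_of_comm {B : Subgroup M} {y : M} (h : ∀ b ∈ B, b * y * b⁻¹ * y⁻¹ ∈ pCore p M) :
    y ∈ Cen p B := by
  rw [mem_Cen]
  intro b hb
  have h1 := mk_eq_one.2 (h b hb)
  rw [map_mul, map_mul, map_mul, map_inv, map_inv] at h1
  have := congrArg (fun t => t * QuotientGroup.mk' (pCore p M) y * QuotientGroup.mk' (pCore p M) b) h1
  simpa [mul_assoc] using this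

theorem comm_mem_of_mem_Cen {B : Subgroup M} {y : M} (h : y ∈ Cen p B) {b : M} (hb : b ∈ B) :
    y * b * y⁻¹ * b⁻¹ ∈ pCore p M := by
  have h1 := mem_Cen.1 h b hb
  rw [← mk_eq_one, map_mul, map_mul, map_mul, ← h1, map_inv, map_inv]
  group

theorem main (hM : IsPSolvable p M) (A : Subgroup M) (hA : IsPGroup p A)
    (hΦ : (frattini ↥A).map A.subtype ≤ pCore p M) (hnot : ¬ A ≤ pCore p M) :
    ∃ x ∈ KK p M, x ∈ pResidualOf p (A ⊔ cj x A) ∧ pResidualOf p (A ⊔ cj x A) ≤ KK p M ∧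
      ⁅pResidualOf p (A ⊔ cj x A), A⁆ = pResidualOf p (A ⊔ cj x A) ∧
      (A ⊓ pCoreOf p (A ⊔ cj x A)).relIndex A = p ∧
      ⁅A ⊓ pCoreOf p (A ⊔ cj x A), A ⊔ cj x A⁆ ≤ pCore p M := by
  have hp : p.Prime := Fact.out
  set π := QuotientGroup.mk' (pCore p M) with hπ
  have hne : {y : M | y ∈ KK p M ∧ y ∉ Cen p A}.Nonempty := by
    by_contra h
    rw [Set.not_nonempty_iff_eq_empty] at h
    apply not_KK_le_Cen hM hA hnot
    intro y hy
    by_contra hyC
    have : y ∈ ({y : M | y ∈ KK p M ∧ y ∉ Cen p A} : Set M) := ⟨hy, hyC⟩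
    rw [h] at this; exact this
  obtain ⟨x0, ⟨hx0K, hx0C⟩, hmin⟩ :=
    Set.exists_min_image _ (fun y => Nat.card ↥(A ⊔ cj y A)) (Set.toFinite _) hne
  obtain ⟨x, hxR0, hxC⟩ := exists_mem_pResidualOf_not_mem_Cen hA hx0K hx0C
  have hxK : x ∈ KK p M := pResidualOf_le_KK hA hx0K hxR0
  have hxL0 : x ∈ A ⊔ cj x0 A := pResidualOf_le' _ hxR0
  have hmin' : ∀ y ∈ A ⊔ cj x0 A, y ∈ KK p M → y ∉ Cen p A → A ⊔ cj y A = A ⊔ cj x0 A := by
    intro y hyL hyK hyC
    apply eq_of_le_of_card_ge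
    · exact sup_le le_sup_left (cj_le fun a ha => (A ⊔ cj x0 A).mul_mem
        ((A ⊔ cj x0 A).mul_mem hyL (le_sup_left (b := cj x0 A) ha)) ((A ⊔ cj x0 A).inv_mem hyL))
    · exact hmin y ⟨hyK, hyC⟩
  have hL : A ⊔ cj x A = A ⊔ cj x0 A := hmin' x hxL0 hxK hxC
  have hRK0 := pResidualOf_le_KK hA hx0K
  refine ⟨x, hxK, ?_⟩
  rw [hL]
  set L := A ⊔ cj x0 A with hLdef
  set R := pResidualOf p L with hR
  set P := pCoreOf p L with hP
  have hAL : A ≤ L := le_sup_left
  have hRL : R ≤ L := pResidualOf_le' _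
  have hLR : L ≤ normalizer (R : Set M) := le_normalizer_pResidualOf L
  have hPL : P ≤ L := pCoreOf_le L
  have hPp : IsPGroup p P := isPGroup_pCoreOf L
  have hLP : L ≤ normalizer (P : Set M) := le_normalizer_pCoreOf L
  have hQp : IsPGroup p (pCore p M) := isPGroup_pCore
  have hLRA : L ≤ R ⊔ A := by
    rw [← hL]
    apply sup_cj_le_sup
    intro a ha
    have e : x * a * x⁻¹ * a⁻¹ = x * (a * x⁻¹ * a⁻¹) := by group
    rw [e]
    exact R.mul_mem hxR0 ((le_normalizer_iff.1 hLR) a (hAL ha) _ (R.inv_mem hxR0))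
  have hAA : A ≤ Cen p A := by
    intro a ha
    apply mem_Cen_of_comm
    intro b hb
    apply hΦ
    refine ⟨⁅(⟨b, hb⟩ : A), (⟨a, ha⟩ : A)⁆, ?_, ?_⟩
    · exact Cfsg.Agent.Lib.Helper3PGroup.commutator_le_frattini hA
        (commutator_mem_commutator (mem_top _) (mem_top _))
    · simp [commutatorElement_def]
  have hApow : ∀ a ∈ A, a ^ p ∈ pCore p M := by
    intro a ha
    apply hΦ
    exact ⟨(⟨a, ha⟩ : A) ^ p, Cfsg.Agent.Lib.Helper3PGroup.pow_mem_frattini hA _, by simp⟩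
  have hRCen : R ≤ Cen p P := by
    intro r hr
    apply mem_Cen_of_comm
    intro b hb
    apply pgroup_le (hPp.to_le (inf_le_left (b := KK p M))) inf_le_right
    refine ⟨?_, hRK0 ?_⟩
    · have e : b * r * b⁻¹ * r⁻¹ = b * (r * b⁻¹ * r⁻¹) := by group
      rw [e]
      exact P.mul_mem hb ((le_normalizer_iff.1 hLP) r (hRL hr) _ (P.inv_mem hb))
    · exact R.mul_mem ((le_normalizer_iff.1 hLR) b (hPL hb) _ hr) (R.inv_mem hr)
  have hnotAP : ¬ A ≤ P := by
    intro h
    apply hxC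
    have h1 : L ≤ P := by
      rw [← hL]
      refine sup_le h (cj_le fun a ha => (le_normalizer_iff.1 hLP) x hxL0 _ (h ha))
    have h2 : x ∈ pCore p M :=
      pgroup_le (hPp.to_le (inf_le_left (b := KK p M))) inf_le_right ⟨h1 hxL0, hxK⟩
    apply mem_Cen_of_comm
    intro b _
    have e : b * x * b⁻¹ * x⁻¹ = (b * x * b⁻¹) * x⁻¹ := by group
    rw [e]
    exact (pCore p M).mul_mem ((inferInstance : (pCore p M).Normal).conj_mem _ h2 b)
      ((pCore p M).inv_mem h2)
  refine ⟨hxR0, hRK0, ?_, ?_, ?_⟩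
  · apply le_antisymm (commutator_le_left_of_le_normalizer (hAL.trans hLR))
    apply pResidualOf_le_of_le_sup hA (le_normalizer_commutator_right R A)
    rw [← hL]
    apply sup_cj_le_sup
    intro a ha
    exact commutator_mem_commutator hxR0 ha
  · -- the index
    set Ab := A.map π with hAb
    set Rb := R.map π with hRb
    have hAbE : IsElementaryAbelian p Ab := by
      refine ⟨⟨⟨?_⟩⟩, ?_⟩
      · rintro ⟨_, a, ha, rfl⟩ ⟨_, b, hb, rfl⟩
        apply Subtype.ext
        exact (mem_Cen.1 (hAA hb) a ha)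
      · rintro _ ⟨a, ha, rfl⟩
        rw [← map_pow]; exact mk_eq_one.2 (hApow a ha)
    have hRbc : ¬ p ∣ Nat.card Rb := by
      have h1 : Rb ≤ pPrimeCore p (M ⧸ pCore p M) := map_le_iff_le_comap.2 hRK0
      have h2 := Subgroup.card_dvd_of_le h1
      have h3 : (Nat.card (pPrimeCore p (M ⧸ pCore p M))).Coprime p :=
        Cfsg.Agent.Lib.Helper40Cores.pPrimeCore_coprime
      intro h4
      exact (Nat.Prime.coprime_iff_not_dvd hp).1 h3.symm (h4.trans h2)
    have hAbN : Ab ≤ normalizer (Rb : Set _) :=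
      (map_mono (hAL.trans hLR)).trans (le_normalizer_map π)
    have key : ∃ Bb : Subgroup (M ⧸ pCore p M), Bb ≤ Ab ∧ Bb.relIndex Ab ≤ p ∧
        ∃ y ∈ R, π y ∈ centralizer (Bb : Set _) ∧ y ∉ Cen p A := by
      by_cases h2 : p ^ 2 ≤ Nat.card Ab
      · have hgen := Cfsg.Agent.S1324.result p Ab Rb hAbE h2 hRbc hAbN
        by_contra hcon
        push Not at hcon
        apply hxC
        have h3 : Rb ≤ centralizer (Ab : Set _) := by
          rw [hgen]
          apply iSup_le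
          rintro ⟨Bb, hBb1, hBb2⟩
          rintro z ⟨hz1, hz2⟩
          obtain ⟨y, hy, rfl⟩ := hz1
          exact hcon Bb hBb1 hBb2 y hy hz2
        exact h3 ⟨x, hxR0, rfl⟩
      · refine ⟨⊥, bot_le, ?_, x, hxR0, ?_, hxC⟩
        · rw [relIndex_bot_left]
          obtain ⟨j, hj⟩ := IsPGroup.iff_card.1 (hA.map π)
          rw [hj] at h2 ⊢
          have hj2 : j < 2 := by
            by_contra h
            exact h2 (Nat.pow_le_pow_right hp.pos (not_lt.1 h))
          calc p ^ j ≤ p ^ 1 := Nat.pow_le_pow_right hp.pos (by omega)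
            _ = p := pow_one p
        · rw [mem_centralizer_iff]
          intro h hh
          have : h = 1 := by simpa using hh
          rw [this]; simp
    obtain ⟨Bb, hBb1, hBb2, y, hyR, hyB, hyC⟩ := key
    set B0 := A ⊓ Bb.comap π with hB0
    have hLy : A ⊔ cj y A = L := hmin' y (hRL hyR) (hRK0 hyR) hyC
    have hyCen : y ∈ Cen p B0 := by
      rw [mem_Cen]; intro b hb
      exact (mem_centralizer_iff.1 hyB) (π b) hb.2
    have hLCen : L ≤ Cen p B0 := by
      rw [← hLy]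
      have hA0 : A ≤ Cen p B0 := hAA.trans (Cen_anti inf_le_left)
      refine sup_le hA0 (cj_le fun a ha => ?_)
      exact (Cen p B0).mul_mem ((Cen p B0).mul_mem hyCen (hA0 ha)) ((Cen p B0).inv_mem hyCen)
    have hB0P : B0 ≤ P := by
      set U := (L ⊓ pCore p M) ⊔ B0 with hU
      have hUL : U ≤ L := sup_le inf_le_left (inf_le_left.trans hAL)
      have hUp : IsPGroup p U := by
        have : U ≤ pCore p M ⊔ A :=
          sup_le (inf_le_right.trans le_sup_left) (inf_le_left.trans le_sup_right)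
        exact (IsPGroup.to_sup_of_normal_left hQp hA).to_le this
      have hUN : L ≤ normalizer (U : Set M) := by
        rw [le_normalizer_iff]
        intro l hl u hu
        have h1 : U.map (MulAut.conj l).toMonoidHom ≤ U := by
          rw [hU, Subgroup.map_sup]
          refine sup_le ?_ ?_
          · rintro _ ⟨q, ⟨hq1, hq2⟩, rfl⟩
            apply le_sup_left (b := B0)
            refine ⟨?_, ?_⟩
            · simpa using L.mul_mem (L.mul_mem hl hq1) (L.inv_mem hl)
            · simpa using (inferInstance : (pCore p M).Normal).conj_mem _ hq2 l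
          · rintro _ ⟨b, hb, rfl⟩
            have e : (MulAut.conj l).toMonoidHom b = (l * b * l⁻¹ * b⁻¹) * b := by simp
            rw [e]
            refine U.mul_mem (le_sup_left (b := B0) ⟨?_, comm_mem_of_mem_Cen (hLCen hl) hb⟩)
              (le_sup_right (a := L ⊓ pCore p M) hb)
            have hbL := hAL hb.1
            exact L.mul_mem (L.mul_mem (L.mul_mem hl hbL) (L.inv_mem hl)) (L.inv_mem hbL)
        exact h1 ⟨u, hu, by simp⟩
      exact le_sup_right.trans (le_pCoreOf hUL hUN hUp)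
    have hi : B0.relIndex A = Bb.relIndex Ab := by
      rw [hB0, inf_relIndex_left, relIndex_comap]
    have h1 : B0.relIndex (A ⊓ P) * (A ⊓ P).relIndex A = B0.relIndex A :=
      Subgroup.relIndex_mul_relIndex _ _ _ (le_inf inf_le_left hB0P) inf_le_left
    set m := (A ⊓ P).relIndex A with hm
    have hm1 : m ≠ 1 := by
      intro h; apply hnotAP; exact (relIndex_eq_one.1 h).trans inf_le_right
    have hmdvd : m ∣ Nat.card A := relIndex_dvd_card _ _
    obtain ⟨n, hn⟩ := IsPGroup.iff_card.1 hA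
    rw [hn] at hmdvd
    obtain ⟨j, hj, hmj⟩ := (Nat.dvd_prime_pow hp).1 hmdvd
    have hpm : p ∣ m := by
      rcases j with _ | j
      · simp at hmj; exact absurd hmj hm1
      · rw [hmj]; exact dvd_pow_self p (Nat.succ_ne_zero j)
    have hm0 : 0 < m := by rw [hmj]; exact pow_pos hp.pos j
    have hmle : m ≤ p := by
      have h2 : m ∣ B0.relIndex A := ⟨_, by rw [← h1, mul_comm]⟩
      have h3 : B0.relIndex A ≠ 0 := by
        intro h0
        have := relIndex_dvd_card B0 A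
        rw [h0, hn] at this
        exact (pow_pos hp.pos n).ne' (Nat.eq_zero_of_zero_dvd this)
      exact (Nat.le_of_dvd (Nat.pos_of_ne_zero h3) h2).trans (hi ▸ hBb2)
    exact le_antisymm hmle (Nat.le_of_dvd hm0 hpm)
  · apply commutator_le_of_le_Cen
    refine hLRA.trans (sup_le (hRCen.trans (Cen_anti inf_le_right)) (hAA.trans (Cen_anti inf_le_left)))

end Cfsg.Agent.Lib.Helper55TC
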