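import Cfsg.Agent.Lib.Helper55BB
import Cfsg.Agent.Lib.Helper55TC

set_option autoImplicit false

namespace Cfsg.Agent.Lib.H55BK

open Subgroup Cfsg
open scoped commutatorElement

variable {G : Type*} [Group G]

/-- piece `res` -/
theorem block_residual [Finite G] {p : ℕ} [Fact p.Prime] (T : Sylow p G) {E : Subgroup G}
    (hE : IsBaumannBlock p (T : Subgroup G) E) :
    pCore p G ≤ normalizer (E : Set G) ∧ pResidualOf p (E ⊔ pCore p G) = E := by
  have hn : (pCore p G).Normal := Cfsg.Agent.Lib.Helper55Core.pCore_mem.1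
  have hp : IsPGroup p (pCore p G) := Cfsg.Agent.Lib.Helper55Core.pCore_mem.2
  have htop : normalizer ((pCore p G : Subgroup G) : Set G) = ⊤ := normalizer_eq_top _
  have h1 : pCore p G ≤ normalizer (E : Set G) :=
    Cfsg.Agent.Lib.Helper55BB.block_le_normalizer T hE hp (htop ▸ le_top) (htop ▸ le_top)
  refine ⟨h1, le_antisymm ?_ ?_⟩
  · exact Cfsg.Agent.Lib.Helper55TC.pResidualOf_le_of_le_sup hp h1 le_rfl
  · conv_lhs => rw [← hE.1]
    rw [Cfsg.Agent.Lib.Helper55BB.pResidualOf_eq, Cfsg.Agent.Lib.Helper55BB.pResidualOf_eq]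
    apply Subgroup.closure_mono
    rintro g ⟨hg, hc⟩
    exact ⟨le_sup_left (a := E) hg, hc⟩

end Cfsg.Agent.Lib.H55BK
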