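import Cfsg.Agent.Lib.H55BKblk
import Cfsg.Agent.Lib.H55BKfix
import Cfsg.Agent.Lib.H55BKinv
import Cfsg.Agent.Lib.H55BKelem
import Cfsg.Agent.Lib.H55BKres

set_option autoImplicit false

namespace Cfsg.Agent.Lib.H55BK

open Subgroup Cfsg
open scoped commutatorElement

variable {G : Type*} [Group G]

/-- the elements of the abelian group `W` which are fixed by `P` modulo `Z`. -/
def cenU (W Z P : Subgroup G) (hab : ∀ a ∈ W, ∀ b ∈ W, a * b = b * a) (hZW : Z ≤ W) :
    Subgroup G where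
  carrier := {w | w ∈ W ∧ ∀ x ∈ P, ⁅w, x⁆ ∈ Z}
  one_mem' := ⟨W.one_mem, fun x _ => by rw [commutatorElement_one_left]; exact Z.one_mem⟩
  mul_mem' := by
    rintro a b ⟨ha, ha'⟩ ⟨hb, hb'⟩
    refine ⟨W.mul_mem ha hb, fun x hx => ?_⟩
    have e : ⁅a * b, x⁆ = a * ⁅b, x⁆ * a⁻¹ * ⁅a, x⁆ := by
      simp only [commutatorElement_def]; group
    have e2 : a * ⁅b, x⁆ * a⁻¹ = ⁅b, x⁆ := by
      rw [hab a ha _ (hZW (hb' x hx)), mul_assoc, mul_inv_cancel, mul_one]
    rw [e, e2]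
    exact Z.mul_mem (hb' x hx) (ha' x hx)
  inv_mem' := by
    rintro a ⟨ha, ha'⟩
    refine ⟨W.inv_mem ha, fun x hx => ?_⟩
    have e : ⁅a⁻¹, x⁆ = a⁻¹ * ⁅a, x⁆⁻¹ * a := by
      simp only [commutatorElement_def]; group
    have e2 : a⁻¹ * ⁅a, x⁆⁻¹ * a = ⁅a, x⁆⁻¹ := by
      rw [hab a⁻¹ (W.inv_mem ha) _ (hZW (Z.inv_mem (ha' x hx))), mul_assoc, inv_mul_cancel,
        mul_one]
    rw [e, e2]
    exact Z.inv_mem (ha' x hx)

/-- piece `cen` -/
theorem block_W_le [Finite G] {p : ℕ} [Fact p.Prime]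
    (hG : centralizer (pCore p G : Set G) ≤ pCore p G) (T : Sylow p G) {E : Subgroup G}
    (hE : IsBaumannBlock p (T : Subgroup G) E) :
    ⁅omegaOneCenter p (pCoreOf p E), E⁆ ≤ omegaOneCenter p (pCore p G) := by
  set P := pCore p G with hPdef
  set Q := pCoreOf p E with hQdef
  set W := omegaOneCenter p Q with hWdef
  set Z := W ⊓ centralizer (E : Set G) with hZdef
  have hPn : P.Normal := Cfsg.Agent.Lib.Helper55Core.pCore_mem.1
  have hPp : IsPGroup p P := Cfsg.Agent.Lib.Helper55Core.pCore_mem.2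
  have hPE : P ≤ normalizer (E : Set G) := (block_residual T hE).1
  obtain ⟨iQ, iW, iZ, iC⟩ := normalizer_le_normalizer_W p E
  obtain ⟨hWQ, hWC, hWexp, -⟩ := omegaOneCenter_props p Q
  obtain ⟨-, -, -, hmax⟩ := omegaOneCenter_props p P
  obtain ⟨hZne, hirr⟩ := block_irred hE
  have hEE : E ≤ normalizer (E : Set G) := le_normalizer
  have hab : ∀ a ∈ W, ∀ b ∈ W, a * b = b * a := by
    intro a ha b hb
    have := hWC hb
    rw [mem_centralizer_iff] at this
    exact this a (hWQ ha)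
  have hZW : Z ≤ W := inf_le_left
  have hWp : IsPGroup p W := (Cfsg.Agent.Lib.Helper55Core.isPGroup_pCoreOf E).to_le hWQ
  have hZlt : Z < W := lt_of_le_of_ne hZW hZne
  obtain ⟨w0, hw0W, hw0Z, hw0⟩ := exists_fixed_mod hWp hPp (hPE.trans iW) hZlt
  set U := cenU W Z P hab hZW with hUdef
  have hUW : U ≤ W := fun w hw => hw.1
  have hZU : Z ≤ U := by
    intro z hz
    refine ⟨hZW hz, fun x hx => ?_⟩
    have e : ⁅z, x⁆ = z * (x * z⁻¹ * x⁻¹) := by
      simp only [commutatorElement_def]; group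
    rw [e]
    exact Z.mul_mem hz (inv_conj_mem (iZ (hPE hx)) (Z.inv_mem hz))
  have hEU : E ≤ normalizer (U : Set G) := by
    apply inv_le_normalizer
    rintro e he w ⟨hw, hw'⟩
    refine ⟨inv_conj_mem (iW (hEE he)) hw, fun x hx => ?_⟩
    have e1 : ⁅e * w * e⁻¹, x⁆ = e * ⁅w, e⁻¹ * x * e⁻¹⁻¹⁆ * e⁻¹ := by
      simp only [commutatorElement_def]; group
    rw [e1]
    exact inv_conj_mem (iZ (hEE he)) (hw' _ (hPn.conj_mem x hx e⁻¹))
  have hUeq : U = W := by
    rcases hirr U hZU hUW hEU with h | h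
    · exfalso
      apply hw0Z
      have h' : U = Z := h
      rw [← h']
      exact ⟨hw0W, hw0⟩
    · exact h
  have hWPZ : ⁅W, P⁆ ≤ Z := by
    rw [commutator_le]
    intro w hw x hx
    have : w ∈ U := hUeq ▸ hw
    exact this.2 x hx
  have h1 : ⁅⁅W, P⁆, E⁆ = ⊥ := by
    rw [commutator_eq_bot_iff_le_centralizer]
    exact hWPZ.trans inf_le_right
  have hPEQ : ⁅P, E⁆ ≤ Q := by
    have hle : ⁅P, E⁆ ≤ P ⊓ E := by
      apply le_inf
      · exact commutator_le_left P E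
      · rw [commutator_le]
        intro x hx e he
        have e1 : ⁅x, e⁆ = (x * e * x⁻¹) * e⁻¹ := by
          simp only [commutatorElement_def]
        rw [e1]
        exact E.mul_mem (inv_conj_mem (hPE hx) he) (E.inv_mem he)
    refine hle.trans ?_
    apply Cfsg.Agent.Lib.Helper55Core.le_pCoreOf inf_le_right
    · apply inv_le_normalizer
      intro e he x hx
      exact mem_inf.mpr ⟨hPn.conj_mem x (mem_inf.mp hx).1 e,
        E.mul_mem (E.mul_mem he (mem_inf.mp hx).2) (E.inv_mem he)⟩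
    · exact hPp.to_le inf_le_left
  have h2 : ⁅⁅P, E⁆, W⁆ = ⊥ := by
    rw [commutator_comm, commutator_eq_bot_iff_le_centralizer]
    exact hWC.trans (centralizer_le hPEQ)
  have h3 : ⁅⁅E, W⁆, P⁆ = ⊥ := commutator_commutator_eq_bot_of_rotate h1 h2
  rw [commutator_comm E W, commutator_eq_bot_iff_le_centralizer] at h3
  have hWEW : ⁅W, E⁆ ≤ W := by
    rw [commutator_le]
    intro w hw e he
    have e1 : ⁅w, e⁆ = w * (e * w⁻¹ * e⁻¹) := by
      simp only [commutatorElement_def]; group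
    rw [e1]
    exact W.mul_mem hw (inv_conj_mem (iW (hEE he)) (W.inv_mem hw))
  exact hmax _ (h3.trans hG) h3 (fun y hy => hWexp y (hWEW hy))

end Cfsg.Agent.Lib.H55BK
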