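import Cfsg.Agent.Lib.Helper55BB

set_option autoImplicit false

namespace Cfsg.Agent.Lib.H55BK

open Subgroup Cfsg
open scoped commutatorElement

variable {G : Type*} [Group G]

theorem cop_conj_pow {w e z : G} (hz : e * w * e⁻¹ = w * z) (hc : e * z = z * e) (k : ℕ) :
    e ^ k * w * (e ^ k)⁻¹ = w * z ^ k := by
  induction k with
  | zero => simp
  | succ k ih =>
    have hzk : e * z ^ k * e⁻¹ = z ^ k := by
      have : Commute e (z ^ k) := (show Commute e z from hc).pow_right k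
      rw [this.eq, mul_assoc, mul_inv_cancel, mul_one]
    calc e ^ (k + 1) * w * (e ^ (k + 1))⁻¹ = e * (e ^ k * w * (e ^ k)⁻¹) * e⁻¹ := by
          rw [pow_succ']; group
      _ = e * (w * z ^ k) * e⁻¹ := by rw [ih]
      _ = (e * w * e⁻¹) * (e * z ^ k * e⁻¹) := by group
      _ = w * z ^ (k + 1) := by rw [hz, hzk, pow_succ', mul_assoc]

/-- piece `cop` : `[W,E,E] = 1` and `E = O^p(E)` give `[W,E] = 1` when `W` has exponent `p`. -/
theorem commutator_eq_bot_of_residual [Finite G] {p : ℕ} [Fact p.Prime] {W E : Subgroup G}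
    (hW : ∀ w ∈ W, w ^ p = 1) (hEW : E ≤ normalizer (W : Set G))
    (hE : pResidualOf p E = E) (h : ⁅⁅W, E⁆, E⁆ = ⊥) : ⁅W, E⁆ = ⊥ := by
  rw [commutator_comm, commutator_eq_bot_iff_le_centralizer]
  conv_lhs => rw [← hE, Cfsg.Agent.Lib.Helper55BB.pResidualOf_eq]
  rw [closure_le]
  rintro e ⟨heE, hcop⟩
  rw [SetLike.mem_coe, mem_centralizer_iff]
  intro w hw
  -- `z = [w⁻¹, e]⁻¹`-type element
  set z : G := w⁻¹ * (e * w * e⁻¹) with hz
  have hzW : z ∈ W := W.mul_mem (W.inv_mem hw) ((mem_normalizer_iff.mp (hEW heE) _).mp hw)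
  have hzc : z ∈ ⁅W, E⁆ := by
    have : z = ⁅w⁻¹, e⁆ := by
      rw [hz, commutatorElement_def]; group
    rw [this]
    exact commutator_mem_commutator (W.inv_mem hw) heE
  have hze : e * z = z * e := by
    have h1 : ⁅z, e⁆ ∈ ⁅⁅W, E⁆, E⁆ := commutator_mem_commutator hzc heE
    rw [h, mem_bot, commutatorElement_eq_one_iff_mul_comm] at h1
    exact h1.symm
  have hconj : e * w * e⁻¹ = w * z := by rw [hz]; group
  have h1 := cop_conj_pow hconj hze (orderOf e)
  rw [pow_orderOf_eq_one] at h1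
  have h2 : z ^ orderOf e = 1 := by
    have : w = w * z ^ orderOf e := by simpa using h1
    exact (mul_eq_left.mp this.symm)
  have h3 : z ^ p = 1 := hW z hzW
  have h4 : z = 1 := by
    have d1 := orderOf_dvd_of_pow_eq_one h2
    have d2 := orderOf_dvd_of_pow_eq_one h3
    have := Nat.dvd_gcd d1 d2
    rw [hcop.gcd_eq_one, Nat.dvd_one] at this
    exact orderOf_eq_one_iff.mp this
  rw [h4, mul_one] at hconj
  exact (mul_inv_eq_iff_eq_mul.mp hconj).symm

end Cfsg.Agent.Lib.H55BK
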