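import Cfsg.Agent.Lib.Helper55BB
import Cfsg.Agent.Lib.Helper14ElemAb

set_option autoImplicit false

namespace Cfsg.Agent.Lib.H55BK

open Subgroup Cfsg
open scoped commutatorElement

variable {G : Type*} [Group G]

/-- piece `jcen` : an elementary abelian subgroup of `T` centralized by `J(T)` is centralized by `B(T)`. -/
theorem baumann_le_centralizer [Finite G] {p : ℕ} [Fact p.Prime] {T Y : Subgroup G}
    (hYT : Y ≤ T) (hYc : IsMulCommutative Y) (hYp : ∀ y ∈ Y, y ^ p = 1)
    (hJ : ⁅Y, thompsonSubgroupOf p T⁆ = ⊥) :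
    baumannSubgroupOf p T ≤ centralizer (Y : Set G) := by
  obtain ⟨A, hA⟩ := Cfsg.Agent.Lib.Helper14ElemAb.maxElemAb_nonempty (G := T) p
  have hYC : Y ≤ centralizer (thompsonSubgroupOf p T : Set G) :=
    (commutator_eq_bot_iff_le_centralizer).1 hJ
  have hAJ : A.map T.subtype ≤ thompsonSubgroupOf p T := map_mono (le_sSup hA)
  have hY : Y ≤ omegaOne p (centerThompsonOf p T) := by
    intro y hy
    apply Subgroup.subset_closure
    refine ⟨⟨?_, hYC hy⟩, hYp y hy⟩
    apply hAJ
    refine ⟨⟨y, hYT hy⟩, ?_, rfl⟩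
    apply Cfsg.Agent.Lib.Helper14ElemAb.mem_of_mem_centralizer_maxElemAb hA
    · rw [mem_centralizer_iff]
      intro a ha
      apply Subtype.ext
      exact (mem_centralizer_iff.1 (hYC hy)) a (hAJ ⟨a, ha, rfl⟩)
    · exact Subtype.ext (by simpa using hYp y hy)
  intro b hb
  rw [mem_centralizer_iff]
  intro y hy
  exact (mem_centralizer_iff.1 hb.2) y (hY hy)

end Cfsg.Agent.Lib.H55BK
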