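import Cfsg.Agent.Lib.H55BKcen
import Cfsg.Agent.Lib.H55BKcop
import Cfsg.Agent.Lib.H55BKjcen
import Cfsg.Agent.Lib.Helper53Rel

set_option autoImplicit false

namespace Cfsg.Agent.Lib.H55BK

open Subgroup Cfsg
open scoped commutatorElement

variable {G : Type*} [Group G]

/-- piece `jne` -/
theorem block_W_J_ne [Finite G] {p : ℕ} [Fact p.Prime]
    (hG : centralizer (pCore p G : Set G) ≤ pCore p G) (T : Sylow p G) {E : Subgroup G}
    (hE : IsBaumannBlock p (T : Subgroup G) E) :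
    ⁅⁅omegaOneCenter p (pCoreOf p E), E⁆, thompsonSubgroupOf p (T : Subgroup G)⁆ ≠ ⊥ := by
  intro hJ
  have hWE := block_W_le hG T hE
  obtain ⟨hP1, hP2, hP3, -⟩ := omegaOneCenter_props p (pCore p G)
  obtain ⟨-, hinvW, -, hinvWE⟩ := normalizer_le_normalizer_W p E
  have hPT : pCore p G ≤ T := Cfsg.Agent.Lib.Helper53Basic.pCore_le_sylow T
  have hcomm : IsMulCommutative ↥(⁅omegaOneCenter p (pCoreOf p E), E⁆ : Subgroup G) :=
    ⟨⟨fun a b => Subtype.ext
      ((mem_centralizer_iff.1 (hP2 (hWE b.2))) a (hP1 (hWE a.2)))⟩⟩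
  have hB := baumann_le_centralizer (p := p) (T := (T : Subgroup G))
    ((hWE.trans hP1).trans hPT) hcomm (fun y hy => hP3 y (hWE hy)) hJ
  have hEN : E ≤ normalizer ((⁅omegaOneCenter p (pCoreOf p E), E⁆ : Subgroup G) : Set G) :=
    le_normalizer.trans hinvWE
  have hEC : E ≤ centralizer ((⁅omegaOneCenter p (pCoreOf p E), E⁆ : Subgroup G) : Set G) := by
    calc E = ⁅E, baumannSubgroupOf p (T : Subgroup G)⁆ := hE.2.1.symm
      _ ≤ ⁅E, centralizer ((⁅omegaOneCenter p (pCoreOf p E), E⁆ : Subgroup G) : Set G)⁆ :=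
        commutator_mono le_rfl hB
      _ ≤ _ := Cfsg.Agent.Lib.Helper53Rel.commutator_le_of_le_normalizer
        (Cfsg.Agent.Lib.Helper53Rel.le_normalizer_centralizer hEN)
  have h1 : ⁅⁅omegaOneCenter p (pCoreOf p E), E⁆, E⁆ = ⊥ := by
    rw [commutator_comm, commutator_eq_bot_iff_le_centralizer]
    exact hEC
  have h2 := commutator_eq_bot_of_residual (omegaOneCenter_props p (pCoreOf p E)).2.2.1
    (le_normalizer.trans hinvW) hE.1 h1
  rw [commutator_eq_bot_iff_le_centralizer] at h2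
  exact (block_irred hE).1 (inf_eq_left.2 h2)

end Cfsg.Agent.Lib.H55BK
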