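import Cfsg.Prelude.Def_BaumannBlocks

set_option autoImplicit false

namespace Cfsg.Agent.Lib.H55BK

open Subgroup Cfsg
open scoped commutatorElement

/-- upper unitriangular element. -/
def sl2_t {F : Type*} [Field F] (b : F) : Matrix.SpecialLinearGroup (Fin 2) F :=
  ⟨!![1, b; 0, 1], by simp [Matrix.det_fin_two]⟩

/-- lower unitriangular element. -/
def sl2_s {F : Type*} [Field F] (b : F) : Matrix.SpecialLinearGroup (Fin 2) F :=
  ⟨!![1, 0; b, 1], by simp [Matrix.det_fin_two]⟩

/-- diagonal element. -/
def sl2_d {F : Type*} [Field F] (a : F) (ha : a ≠ 0) : Matrix.SpecialLinearGroup (Fin 2) F :=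
  ⟨!![a, 0; 0, a⁻¹], by simp [Matrix.det_fin_two, ha]⟩

theorem sl2_comm_of_eq {G : Type*} [Group G] (d t x : G) (h : d * t = x * t * d) : ⁅d, t⁆ = x := by
  rw [commutatorElement_def, h]
  group

theorem sl2_final {F : Type*} [Field F] (U : AddSubgroup (Fin 2 → F))
    (ht : ∀ c : F, ∀ v ∈ U, ![c * v 1, 0] ∈ U) (hs : ∀ c : F, ∀ v ∈ U, ![0, c * v 0] ∈ U)
    (hne : U ≠ ⊥) : U = ⊤ := by
  obtain ⟨v, hv, hv0⟩ : ∃ v ∈ U, v ≠ 0 := by
    by_contra h
    push Not at h
    exact hne ((AddSubgroup.eq_bot_iff_forall U).2 h)
  have key : (∀ c : F, ![c, 0] ∈ U) ∧ (∀ c : F, ![0, c] ∈ U) := by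
    by_cases h1 : v 1 = 0
    · have h0 : v 0 ≠ 0 := by
        intro h0
        apply hv0
        ext i
        fin_cases i
        · exact h0
        · exact h1
      have hB : ∀ c : F, ![0, c] ∈ U := by
        intro c
        have := hs (c / v 0) v hv
        rwa [div_mul_cancel₀ _ h0] at this
      refine ⟨fun c => ?_, hB⟩
      have := ht c _ (hB 1)
      simpa using this
    · have hA : ∀ c : F, ![c, 0] ∈ U := by
        intro c
        have := ht (c / v 1) v hv
        rwa [div_mul_cancel₀ _ h1] at this
      refine ⟨hA, fun c => ?_⟩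
      have := hs c _ (hA 1)
      simpa using this
  rw [eq_top_iff]
  intro w _
  have : w = ![w 0, 0] + ![0, w 1] := by
    ext i
    fin_cases i <;> simp
  rw [this]
  exact U.add_mem (key.1 _) (key.2 _)

/-- piece `sl2`: the natural module `F²` is irreducible (as an additive group) for `SL₂(F)'`. -/
theorem sl2_comm_irred {F : Type*} [Field F] [Fintype F] (U : AddSubgroup (Fin 2 → F))
    (hU : ∀ g ∈ commutator (Matrix.SpecialLinearGroup (Fin 2) F), ∀ v ∈ U,
      (g : Matrix (Fin 2) (Fin 2) F).mulVec v ∈ U)
    (hne : U ≠ ⊥) : U = ⊤ := by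
  classical
  have hcomm : ∀ x y : Matrix.SpecialLinearGroup (Fin 2) F,
      ⁅x, y⁆ ∈ commutator (Matrix.SpecialLinearGroup (Fin 2) F) := fun x y =>
    Subgroup.commutator_mem_commutator (Subgroup.mem_top x) (Subgroup.mem_top y)
  by_cases hcard : 3 < Fintype.card F
  · obtain ⟨a, ha⟩ : ∃ a : F, a ∉ ({0, 1, -1} : Finset F) := by
      by_contra h
      push Not at h
      have h1 : (Finset.univ : Finset F) ⊆ {0, 1, -1} := fun x _ => h x
      have h2 := Finset.card_le_card h1
      have h3 : ({0, 1, -1} : Finset F).card ≤ 3 := Finset.card_le_three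
      rw [Finset.card_univ] at h2
      omega
    simp only [Finset.mem_insert, Finset.mem_singleton, not_or] at ha
    obtain ⟨ha0, ha1, ha2⟩ := ha
    have hsq : a * a - 1 ≠ 0 := by
      intro h
      have h1 : (a - 1) * (a + 1) = 0 := by linear_combination h
      rcases mul_eq_zero.1 h1 with h | h
      · exact ha1 (by linear_combination h)
      · exact ha2 (by linear_combination h)
    have htm : ∀ c : F, sl2_t c ∈ commutator (Matrix.SpecialLinearGroup (Fin 2) F) := by
      intro c
      have h1 : ∀ b : F, ⁅sl2_d a ha0, sl2_t b⁆ = sl2_t ((a * a - 1) * b) := by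
        intro b
        apply sl2_comm_of_eq
        apply Subtype.ext
        change !![a, 0; 0, a⁻¹] * !![1, b; 0, 1]
          = !![1, (a * a - 1) * b; 0, 1] * !![1, b; 0, 1] * !![a, 0; 0, a⁻¹]
        ext i j
        fin_cases i <;> fin_cases j <;> simp [Matrix.mul_apply, Fin.sum_univ_two]
        field_simp
        ring
      have h2 := h1 (c / (a * a - 1))
      rw [mul_div_cancel₀ _ hsq] at h2
      rw [← h2]
      exact hcomm _ _
    have hsm : ∀ c : F, sl2_s c ∈ commutator (Matrix.SpecialLinearGroup (Fin 2) F) := by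
      intro c
      have h1 : ∀ b : F, ⁅sl2_d a⁻¹ (inv_ne_zero ha0), sl2_s b⁆ = sl2_s ((a * a - 1) * b) := by
        intro b
        apply sl2_comm_of_eq
        apply Subtype.ext
        change !![a⁻¹, 0; 0, a⁻¹⁻¹] * !![1, 0; b, 1]
          = !![1, 0; (a * a - 1) * b, 1] * !![1, 0; b, 1] * !![a⁻¹, 0; 0, a⁻¹⁻¹]
        ext i j
        fin_cases i <;> fin_cases j <;> simp [Matrix.mul_apply, Fin.sum_univ_two]
        field_simp
        ring
      have h2 := h1 (c / (a * a - 1))
      rw [mul_div_cancel₀ _ hsq] at h2
      rw [← h2]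
      exact hcomm _ _
    refine sl2_final U ?_ ?_ hne
    · intro c v hv
      have h1 := U.sub_mem (hU _ (htm c) v hv) hv
      have h2 : (sl2_t c : Matrix (Fin 2) (Fin 2) F).mulVec v - v = ![c * v 1, 0] := by
        change (!![1, c; 0, 1] : Matrix (Fin 2) (Fin 2) F).mulVec v - v = _
        ext i
        fin_cases i <;> simp [dotProduct, Fin.sum_univ_two]
      rwa [h2] at h1
    · intro c v hv
      have h1 := U.sub_mem (hU _ (hsm c) v hv) hv
      have h2 : (sl2_s c : Matrix (Fin 2) (Fin 2) F).mulVec v - v = ![0, c * v 0] := by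
        change (!![1, 0; c, 1] : Matrix (Fin 2) (Fin 2) F).mulVec v - v = _
        ext i
        fin_cases i <;> simp [dotProduct, Fin.sum_univ_two]
      rwa [h2] at h1
  · -- prime field with two or three elements
    have hcard2 : 2 ≤ Fintype.card F := Fintype.one_lt_card
    have hprime : (Nat.card F).Prime := by
      rw [Nat.card_eq_fintype_card]
      have : Fintype.card F = 2 ∨ Fintype.card F = 3 := by omega
      rcases this with h | h <;> rw [h] <;> norm_num
    have hscal : ∀ c : F, ∃ n : ℤ, c = n := by
      intro c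
      have := Fact.mk hprime
      have h1 : AddSubgroup.zmultiples (1 : F) = ⊤ := by
        rcases AddSubgroup.eq_bot_or_eq_top_of_prime_card (AddSubgroup.zmultiples (1 : F)) with h | h
        · exfalso
          have : (1 : F) ∈ (⊥ : AddSubgroup F) := h ▸ AddSubgroup.mem_zmultiples 1
          exact one_ne_zero (AddSubgroup.mem_bot.1 this)
        · exact h
      have h2 : c ∈ AddSubgroup.zmultiples (1 : F) := h1 ▸ AddSubgroup.mem_top c
      obtain ⟨n, hn⟩ := AddSubgroup.mem_zmultiples_iff.1 h2
      exact ⟨n, by rw [← hn]; simp⟩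
    have hsmul : ∀ c : F, ∀ v ∈ U, c • v ∈ U := by
      intro c v hv
      obtain ⟨n, rfl⟩ := hscal c
      have h1 : ((n : F) • v) = n • v := by
        ext i
        simp
      rw [h1]
      exact U.zsmul_mem hv n
    have hcases : ∀ c : F, c = 0 ∨ c = 1 ∨ c = -1 := by
      intro c
      have h1 := FiniteField.pow_card c
      have : Fintype.card F = 2 ∨ Fintype.card F = 3 := by omega
      rcases this with h | h
      · rw [h] at h1
        have h2 : c * (c - 1) = 0 := by linear_combination h1
        rcases mul_eq_zero.1 h2 with h | h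
        · exact Or.inl h
        · exact Or.inr (Or.inl (by linear_combination h))
      · rw [h] at h1
        have h2 : c * ((c - 1) * (c + 1)) = 0 := by linear_combination h1
        rcases mul_eq_zero.1 h2 with h | h
        · exact Or.inl h
        · rcases mul_eq_zero.1 h with h | h
          · exact Or.inr (Or.inl (by linear_combination h))
          · exact Or.inr (Or.inr (by linear_combination h))
    have h5 : (5 : F) ≠ 0 := by
      have h1 := FiniteField.cast_card_eq_zero F
      have : Fintype.card F = 2 ∨ Fintype.card F = 3 := by omega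
      intro h5
      rcases this with h | h
      · rw [h] at h1
        push_cast at h1
        exact one_ne_zero (α := F) (by linear_combination h5 - 2 * h1)
      · rw [h] at h1
        push_cast at h1
        exact one_ne_zero (α := F) (by linear_combination 2 * h1 - h5)
    obtain ⟨v, hv, hv0⟩ : ∃ v ∈ U, v ≠ 0 := by
      by_contra h
      push Not at h
      exact hne ((AddSubgroup.eq_bot_iff_forall U).2 h)
    have hD : v 0 * v 0 - 3 * v 0 * v 1 + v 1 * v 1 ≠ 0 := by
      have hne0 : ¬ (v 0 = 0 ∧ v 1 = 0) := by
        rintro ⟨h0, h1⟩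
        apply hv0
        ext i
        fin_cases i
        · exact h0
        · exact h1
      rcases hcases (v 0) with h | h | h <;> rcases hcases (v 1) with h' | h' | h'
      · exact absurd ⟨h, h'⟩ hne0
      · rw [h, h']; intro hh; exact one_ne_zero (α := F) (by linear_combination hh)
      · rw [h, h']; intro hh; exact one_ne_zero (α := F) (by linear_combination hh)
      · rw [h, h']; intro hh; exact one_ne_zero (α := F) (by linear_combination hh)
      · rw [h, h']; intro hh; exact one_ne_zero (α := F) (by linear_combination -hh)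
      · rw [h, h']; intro hh; exact h5 (by linear_combination hh)
      · rw [h, h']; intro hh; exact one_ne_zero (α := F) (by linear_combination hh)
      · rw [h, h']; intro hh; exact h5 (by linear_combination hh)
      · rw [h, h']; intro hh; exact one_ne_zero (α := F) (by linear_combination -hh)
    -- the commutator element
    have hg : (⟨!![3, -1; 1, 0], by simp [Matrix.det_fin_two]⟩ : Matrix.SpecialLinearGroup (Fin 2) F)
        ∈ commutator (Matrix.SpecialLinearGroup (Fin 2) F) := by
      have h1 : ⁅sl2_t (1 : F), sl2_s (1 : F)⁆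
          = (⟨!![3, -1; 1, 0], by simp [Matrix.det_fin_two]⟩ :
              Matrix.SpecialLinearGroup (Fin 2) F) := by
        apply sl2_comm_of_eq
        apply Subtype.ext
        change !![1, 1; 0, 1] * !![1, 0; 1, 1]
          = !![3, -1; 1, 0] * !![1, 0; 1, 1] * !![(1 : F), 1; 0, 1]
        ext i j
        fin_cases i <;> fin_cases j <;> simp [Matrix.mul_apply, Fin.sum_univ_two] <;> ring
      rw [← h1]
      exact hcomm _ _
    have hgv := hU _ hg v hv
    have hgv' : (!![3, -1; 1, 0] : Matrix (Fin 2) (Fin 2) F).mulVec v = ![3 * v 0 - v 1, v 0] := by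
      ext i
      fin_cases i <;> simp [dotProduct, Fin.sum_univ_two]
      ring
    change (!![3, -1; 1, 0] : Matrix (Fin 2) (Fin 2) F).mulVec v ∈ U at hgv
    rw [hgv'] at hgv
    rw [eq_top_iff]
    intro w _
    set D := v 0 * v 0 - 3 * v 0 * v 1 + v 1 * v 1 with hDdef
    have hw : w = ((w 0 * v 0 - (3 * v 0 - v 1) * w 1) / D) • v
        + ((v 0 * w 1 - v 1 * w 0) / D) • ![3 * v 0 - v 1, v 0] := by
      ext i
      fin_cases i
      · simp
        field_simp
        rw [hDdef]
        ring
      · simp
        field_simp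
        rw [hDdef]
        ring
    rw [hw]
    exact U.add_mem (hsmul _ _ hv) (hsmul _ _ hgv)

end Cfsg.Agent.Lib.H55BK
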