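import Cfsg.Agent.Lib.H57McLDefs

set_option autoImplicit false
set_option linter.unusedSectionVars false

namespace Cfsg.Agent.Lib.H57McL.TSys

variable {F V V' G : Type*} [Field F] [AddCommGroup V] [Module F V]
  [AddCommGroup V'] [Module F V'] [Group G] [Finite V] [Finite V'] (T : TSys F V V' G)

theorem S_neg_left {u : V} {φ : V'} (h : T.S u φ) : T.S (-u) φ := by
  simpa using T.S_smul_left (-1) u φ h

theorem S_neg_right {u : V} {φ : V'} (h : T.S u φ) : T.S u (-φ) := by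
  simpa using T.S_smul_right (-1) u φ h

theorem S_sub_left {u u' : V} {φ : V'} (h : T.S u φ) (h' : T.S u' φ) : T.S (u - u') φ := by
  rw [sub_eq_add_neg]
  exact T.S_add_left _ _ _ h (T.S_neg_left h')

theorem S_sub_right {u : V} {φ φ' : V'} (h : T.S u φ) (h' : T.S u φ') : T.S u (φ - φ') := by
  rw [sub_eq_add_neg]
  exact T.S_add_right _ _ _ h (T.S_neg_right h')

/-- conjugating `(u, φ)` by the transvection `(v, ψ)` -/
theorem conj {u v : V} {φ ψ : V'} (h : T.S u φ) (h' : T.S v ψ) :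
    T.S (u + T.e u ψ • v) (φ - T.e v φ • ψ) ∧ T.Orb u (u + T.e u ψ • v) := by
  obtain ⟨g, h1, h2⟩ := T.tv v ψ h'
  refine ⟨?_, orb_iff.2 ⟨g, h1 u⟩⟩
  have := T.S_inv g u φ h
  rwa [h1, h2] at this

/-- Obs1 -/
theorem obs1 {u v : V} {φ ψ : V'} (h : T.S u φ) (h' : T.S v ψ) (h1 : T.e u ψ = 0)
    (h2 : T.e v φ ≠ 0) : T.S u ψ := by
  have h3 := (T.conj h h').1
  rw [h1, zero_smul, add_zero] at h3
  have h4 := T.S_sub_right h h3
  rw [sub_sub_cancel] at h4
  have h5 := T.S_smul_right (T.e v φ)⁻¹ _ _ h4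
  rwa [smul_smul, inv_mul_cancel₀ h2, one_smul] at h5

theorem adj_isCentre {u v : V} (h : T.Adj u v) : T.IsCentre u := by
  obtain ⟨hu, φ, hS, he⟩ := adj_iff.1 h
  refine isCentre_iff.2 ⟨hu, φ, ?_, hS⟩
  rintro rfl
  simp at he

theorem adj_ne {u v : V} (h : T.Adj u v) : v ≠ 0 := by
  obtain ⟨hu, φ, hS, he⟩ := adj_iff.1 h
  rintro rfl
  simp at he

/-- (†) -/
theorem dagger {u v : V} {φ : V'} (h : T.S u φ) (hvu : T.Adj v u) (h0 : T.e v φ = 0) :
    T.S v φ := by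
  obtain ⟨hv, χ, hS, he⟩ := adj_iff.1 hvu
  exact T.obs1 hS h h0 he

end Cfsg.Agent.Lib.H57McL.TSys
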