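import Cfsg.Agent.Lib.H57McLDefs
import Cfsg.Agent.Lib.H57McLA1

set_option autoImplicit false
set_option linter.unusedSectionVars false

namespace Cfsg.Agent.Lib.H57McL.TSys

variable {F V V' G : Type*} [Field F] [AddCommGroup V] [Module F V]
  [AddCommGroup V'] [Module F V'] [Group G] [Finite V] [Finite V'] (T : TSys F V V' G)

theorem move {u v : V} (h : T.Adj u v) (h' : T.Adj v u) : T.Orb u v := by
  obtain ⟨hu, φ, hS, he⟩ := adj_iff.1 h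
  obtain ⟨hv, ψ, hS', he'⟩ := adj_iff.1 h'
  obtain ⟨g₁, h1, -⟩ := T.tv v ((T.e u ψ)⁻¹ • ψ) (T.S_smul_right _ _ _ hS')
  obtain ⟨g₂, h2, -⟩ := T.tv u ((-(T.e v φ)⁻¹) • φ) (T.S_smul_right _ _ _ hS)
  refine orb_iff.2 ⟨g₂ * g₁, ?_⟩
  rw [map_mul, LinearEquiv.mul_apply, h1, h2]
  have e1 : T.e u ((T.e u ψ)⁻¹ • ψ) = 1 := by
    rw [map_smul, smul_eq_mul, inv_mul_cancel₀ he']
  have e2 : T.e (u + v) ((-(T.e v φ)⁻¹) • φ) = -1 := by
    rw [map_smul, smul_eq_mul, map_add, LinearMap.add_apply, T.S_perp u φ hS, zero_add, neg_mul,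
      inv_mul_cancel₀ he]
  rw [e1, one_smul, e2]
  simp

theorem adj_add {u v : V} (h : T.Adj v u) (c : F) : T.Orb u (u + c • v) := by
  obtain ⟨hv, ψ, hS', he'⟩ := adj_iff.1 h
  obtain ⟨g₁, h1, -⟩ := T.tv v ((c * (T.e u ψ)⁻¹) • ψ) (T.S_smul_right _ _ _ hS')
  refine orb_iff.2 ⟨g₁, ?_⟩
  rw [h1]
  simp only [map_smul, smul_eq_mul, mul_assoc, inv_mul_cancel₀ he', mul_one]

end Cfsg.Agent.Lib.H57McL.TSys
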