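import Cfsg.Agent.Lib.H57McLDefs
import Cfsg.Agent.Lib.H57McLA2

set_option autoImplicit false
set_option linter.unusedSectionVars false

namespace Cfsg.Agent.Lib.H57McL.TSys

variable {F V V' G : Type*} [Field F] [AddCommGroup V] [Module F V]
  [AddCommGroup V'] [Module F V'] [Group G] [Finite V] [Finite V'] (T : TSys F V V' G)

private theorem A3_inv_a (g : G) (u : V) : T.a g⁻¹ (T.a g u) = u := by
  rw [← LinearEquiv.mul_apply, ← map_mul]; simp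

private theorem A3_inv_a' (g : G) (φ : V') : T.a' g⁻¹ (T.a' g φ) = φ := by
  rw [← LinearEquiv.mul_apply, ← map_mul]; simp

private theorem A3_a'_inv (g : G) (φ : V') : T.a' g (T.a' g⁻¹ φ) = φ := by
  rw [← LinearEquiv.mul_apply, ← map_mul]; simp

theorem orb_refl (u : V) : T.Orb u u := by
  exact orb_iff.2 ⟨1, by simp⟩

theorem orb_symm {u v : V} (h : T.Orb u v) : T.Orb v u := by
  obtain ⟨g, rfl⟩ := orb_iff.1 h
  exact orb_iff.2 ⟨g⁻¹, T.A3_inv_a g u⟩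

theorem orb_trans {u v w : V} (h : T.Orb u v) (h' : T.Orb v w) : T.Orb u w := by
  obtain ⟨g, rfl⟩ := orb_iff.1 h
  obtain ⟨g', rfl⟩ := orb_iff.1 h'
  exact orb_iff.2 ⟨g' * g, by rw [map_mul, LinearEquiv.mul_apply]⟩

theorem orb_map (g : G) (u : V) : T.Orb u (T.a g u) := by
  exact orb_iff.2 ⟨g, rfl⟩

theorem orb_ne {u v : V} (h : T.Orb u v) (hu : u ≠ 0) : v ≠ 0 := by
  obtain ⟨g, rfl⟩ := orb_iff.1 h
  simpa using hu

theorem S_inv_iff (g : G) (u : V) (φ : V') : T.S (T.a g u) (T.a' g φ) ↔ T.S u φ := by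
  refine ⟨fun h => ?_, T.S_inv g u φ⟩
  have := T.S_inv g⁻¹ _ _ h
  rwa [T.A3_inv_a, T.A3_inv_a'] at this

theorem isCentre_orb {u v : V} (h : T.Orb u v) (hu : T.IsCentre u) : T.IsCentre v := by
  obtain ⟨hu0, φ, hφ, hS⟩ := isCentre_iff.1 hu
  have hv := T.orb_ne h hu0
  obtain ⟨g, rfl⟩ := orb_iff.1 h
  exact isCentre_iff.2 ⟨hv, T.a' g φ, by simpa using hφ, T.S_inv g u φ hS⟩

theorem adj_map (g : G) {u v : V} (h : T.Adj u v) : T.Adj (T.a g u) (T.a g v) := by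
  obtain ⟨hu, φ, hS, he⟩ := adj_iff.1 h
  exact adj_iff.2 ⟨by simpa using hu, T.a' g φ, T.S_inv g u φ hS, by rwa [T.e_inv]⟩

theorem thin_orb {u v : V} (h : T.Orb u v) (hu : T.Thin u) : T.Thin v := by
  obtain ⟨g, rfl⟩ := orb_iff.1 h
  rw [thin_iff] at hu ⊢
  intro φ ψ hφ hψ hφ0
  have h1 : T.S u (T.a' g⁻¹ φ) := by
    rw [← T.S_inv_iff g, T.A3_a'_inv]; exact hφ
  have h2 : T.S u (T.a' g⁻¹ ψ) := by
    rw [← T.S_inv_iff g, T.A3_a'_inv]; exact hψ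
  obtain ⟨c, hc⟩ := hu _ _ h1 h2 (by simpa using hφ0)
  refine ⟨c, ?_⟩
  have := congrArg (T.a' g) hc
  rwa [T.A3_a'_inv, map_smul, T.A3_a'_inv] at this

theorem ncard_orb {u v : V} (h : T.Orb u v) :
    {φ | T.S v φ}.ncard = {φ | T.S u φ}.ncard := by
  obtain ⟨g, rfl⟩ := orb_iff.1 h
  have : {φ | T.S (T.a g u) φ} = (T.a' g) '' {φ | T.S u φ} := by
    ext φ
    constructor
    · intro hφ
      refine ⟨T.a' g⁻¹ φ, ?_, T.A3_a'_inv g φ⟩
      show T.S u (T.a' g⁻¹ φ)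
      rw [← T.S_inv_iff g, T.A3_a'_inv]; exact hφ
    · rintro ⟨ψ, hψ, rfl⟩
      exact T.S_inv g u ψ hψ
  rw [this]
  exact Set.ncard_image_of_injective _ (T.a' g).injective

end Cfsg.Agent.Lib.H57McL.TSys
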