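import Cfsg.Agent.Lib.H57McLDefs
import Cfsg.Agent.Lib.H57McLA3

set_option autoImplicit false
set_option linter.unusedSectionVars false

namespace Cfsg.Agent.Lib.H57McL.TSys

variable {F V V' G : Type*} [Field F] [AddCommGroup V] [Module F V]
  [AddCommGroup V'] [Module F V'] [Group G] [Finite V] [Finite V'] (T : TSys F V V' G)

private theorem A4_sub {u v : V} (h : T.Adj u v) (hv : v ≠ 0) (h' : ¬ T.Adj v u) {ψ : V'}
    (hψ : T.S v ψ) : T.S u ψ := by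
  obtain ⟨hu, φ, hS, he⟩ := adj_iff.1 h
  have h0 : T.e u ψ = 0 := by
    by_contra hne
    exact h' (adj_iff.2 ⟨hv, ψ, hψ, hne⟩)
  exact T.obs1 hS hψ h0 he

theorem ncard_lt {u v : V} (h : T.Adj u v) (hv : v ≠ 0) (h' : ¬ T.Adj v u) :
    {φ | T.S v φ}.ncard < {φ | T.S u φ}.ncard := by
  obtain ⟨hu, φ, hS, he⟩ := adj_iff.1 h
  apply Set.ncard_lt_ncard _ (Set.toFinite _)
  refine ⟨fun ψ hψ => T.A4_sub h hv h' hψ, fun hsub => ?_⟩
  exact he (T.S_perp v φ (hsub hS))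

/-- Symmetry of adjacency. -/
theorem adj_symm {u v : V} (h : T.Adj u v) (hv : T.IsCentre v) : T.Adj v u := by
  by_contra h'
  obtain ⟨hv0, ψ, hψ0, hψ⟩ := isCentre_iff.1 hv
  have hu0 : u ≠ 0 := (adj_iff.1 h).1
  have hlt := T.ncard_lt h hv0 h'
  have hSu : T.S u ψ := T.A4_sub h hv0 h' hψ
  obtain ⟨g, hg⟩ := T.K u ψ hSu hu0 hψ0
  have horb : T.Orb u (T.a g u) := T.orb_map g u
  have hcard := T.ncard_orb horb
  have hadj : T.Adj v (T.a g u) := adj_iff.2 ⟨hv0, ψ, hψ, hg⟩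
  by_cases h2 : T.Adj (T.a g u) v
  · have := T.ncard_orb (T.move h2 hadj)
    omega
  · have := T.ncard_lt hadj (T.orb_ne horb hu0) h2
    omega

end Cfsg.Agent.Lib.H57McL.TSys
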