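import Cfsg.Agent.Lib.H57McLDefs
import Cfsg.Agent.Lib.H57McLA4

set_option autoImplicit false
set_option linter.unusedSectionVars false

namespace Cfsg.Agent.Lib.H57McL.TSys

variable {F V V' G : Type*} [Field F] [AddCommGroup V] [Module F V]
  [AddCommGroup V'] [Module F V'] [Group G] [Finite V] [Finite V'] (T : TSys F V V' G)

theorem exists_adj {u : V} (h : T.IsCentre u) : ∃ g, T.Adj u (T.a g u) := by
  obtain ⟨hu0, φ, hφ, hS⟩ := isCentre_iff.1 h
  obtain ⟨g, hg⟩ := T.K u φ hS hu0 hφ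
  exact ⟨g, adj_iff.2 ⟨hu0, φ, hS, hg⟩⟩

theorem orb_of_adj {u v : V} (h : T.Adj u v) (hv : T.IsCentre v) : T.Orb u v := by
  exact T.move h (T.adj_symm h hv)

theorem smul_orb {u : V} (h : T.IsCentre u) {c : F} (hc : c ≠ 0) : T.Orb u (c • u) := by
  obtain ⟨g, hg⟩ := T.exists_adj h
  have hv : T.IsCentre (T.a g u) := T.isCentre_orb (T.orb_map g u) h
  have hg' := T.adj_symm hg hv
  obtain ⟨hu, φ, hS, he⟩ := adj_iff.1 hg
  obtain ⟨hv0, ψ, hS', he'⟩ := adj_iff.1 hg'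
  have h1 : T.Adj (c • u) (T.a g u) :=
    adj_iff.2 ⟨smul_ne_zero hc hu, φ, T.S_smul_left c u φ hS, he⟩
  have h2 : T.Adj (T.a g u) (c • u) := by
    refine adj_iff.2 ⟨hv0, ψ, hS', ?_⟩
    rw [map_smul, LinearMap.smul_apply, smul_eq_mul]
    exact mul_ne_zero hc he'
  exact T.orb_trans (T.orb_map g u) (T.move h2 h1)

end Cfsg.Agent.Lib.H57McL.TSys
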