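import Cfsg.Agent.Lib.H57McLDefs
import Cfsg.Agent.Lib.H57McLA5

set_option autoImplicit false
set_option linter.unusedSectionVars false

namespace Cfsg.Agent.Lib.H57McL.TSys

variable {F V V' G : Type*} [Field F] [AddCommGroup V] [Module F V]
  [AddCommGroup V'] [Module F V'] [Group G] [Finite V] [Finite V'] (T : TSys F V V' G)

/-- one step of the induction for `diam2` -/
theorem diam2_step {u v w z : V} {χ : V'} (hu : T.IsCentre u) (hv : T.Orb u v)
    (h1 : T.Adj u w) (h2 : T.Adj w v) (hS : T.S z χ) :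
    ∃ w', T.Adj u w' ∧ T.Adj w' (v + T.e v χ • z) := by
  by_cases he : T.e v χ = 0
  · exact ⟨w, h1, by rw [he, zero_smul, add_zero]; exact h2⟩
  by_cases hz : z = 0
  · exact ⟨w, h1, by rw [hz, smul_zero, add_zero]; exact h2⟩
  have hvc : T.IsCentre v := T.isCentre_orb hv hu
  have hwc : T.IsCentre w := T.adj_isCentre h2
  have hzv : T.Adj z v := adj_iff.2 ⟨hz, χ, hS, he⟩
  have hvz : T.Adj v z := T.adj_symm hzv hvc
  obtain ⟨hv0, ψ, hψ, hψz⟩ := adj_iff.1 hvz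
  set v' := v + T.e v χ • z with hv'
  have hv'orb : T.Orb v v' := T.adj_add hzv _
  have hv'c : T.IsCentre v' := T.isCentre_orb hv'orb hvc
  have hvv' : T.Adj v v' := by
    refine adj_iff.2 ⟨hv0, ψ, hψ, ?_⟩
    rw [hv', map_add, LinearMap.add_apply, T.S_perp v ψ hψ, zero_add, map_smul,
      LinearMap.smul_apply, smul_eq_mul]
    exact mul_ne_zero he hψz
  have hv'v : T.Adj v' v := T.adj_symm hvv' hv'c
  by_cases c1 : T.Adj w v'
  · exact ⟨w, h1, c1⟩
  by_cases c2 : T.Adj u v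
  · exact ⟨v, c2, hvv'⟩
  have hvw : T.Adj v w := T.adj_symm h2 hvc
  have hw'orb : T.Orb w (w + (1 : F) • v) := T.adj_add hvw 1
  rw [one_smul] at hw'orb
  have hw'c : T.IsCentre (w + v) := T.isCentre_orb hw'orb hwc
  refine ⟨w + v, ?_, ?_⟩
  · obtain ⟨hu0, φ, hφ, hφw⟩ := adj_iff.1 h1
    refine adj_iff.2 ⟨hu0, φ, hφ, ?_⟩
    have : T.e v φ = 0 := by
      by_contra hne
      exact c2 (adj_iff.2 ⟨hu0, φ, hφ, hne⟩)
    rw [map_add, LinearMap.add_apply, this, add_zero]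
    exact hφw
  · apply T.adj_symm _ hw'c
    obtain ⟨hv'0, ψ', hψ', hψ'v⟩ := adj_iff.1 hv'v
    refine adj_iff.2 ⟨hv'0, ψ', hψ', ?_⟩
    have : T.e w ψ' = 0 := by
      by_contra hne
      exact c1 (T.adj_symm (adj_iff.2 ⟨hv'0, ψ', hψ', hne⟩) hwc)
    rw [map_add, LinearMap.add_apply, this, zero_add]
    exact hψ'v

/-- any two centres of an orbit have a common neighbour -/
theorem diam2 {u v : V} (hu : T.IsCentre u) (h : T.Orb u v) : ∃ w, T.Adj u w ∧ T.Adj w v := by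
  obtain ⟨g, rfl⟩ := orb_iff.1 h
  refine T.gen (fun g => ∃ w, T.Adj u w ∧ T.Adj w (T.a g u)) ?_ ?_ g
  · obtain ⟨g₀, hg₀⟩ := T.exists_adj hu
    refine ⟨T.a g₀ u, hg₀, ?_⟩
    rw [map_one]
    exact T.adj_symm hg₀ (T.isCentre_orb (T.orb_map g₀ u) hu)
  · rintro h g ⟨z, χ, hS, ha, -⟩ ⟨w, h1, h2⟩
    rw [map_mul, LinearEquiv.mul_apply, ha]
    exact T.diam2_step hu (T.orb_map g u) h1 h2 hS

end Cfsg.Agent.Lib.H57McL.TSys
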