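import Cfsg.Agent.Lib.H57McLDefs
import Cfsg.Agent.Lib.H57McLA6

set_option autoImplicit false
set_option linter.unusedSectionVars false

namespace Cfsg.Agent.Lib.H57McL.TSys

variable {F V V' G : Type*} [Field F] [AddCommGroup V] [Module F V]
  [AddCommGroup V'] [Module F V'] [Group G] [Finite V] [Finite V'] (T : TSys F V V' G)

theorem exists_ker {u : V} (h : ¬ T.Thin u) (w : V) : ∃ ψ, ψ ≠ 0 ∧ T.S u ψ ∧ T.e w ψ = 0 := by
  rw [thin_iff] at h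
  push Not at h
  obtain ⟨φ, ψ, hφ, hψ, hφ0, hne⟩ := h
  by_cases hw : T.e w φ = 0
  · exact ⟨φ, hφ0, hφ, hw⟩
  · refine ⟨ψ - (T.e w ψ / T.e w φ) • φ, ?_, T.S_sub_right hψ (T.S_smul_right _ _ _ hφ), ?_⟩
    · intro h0
      exact hne _ (sub_eq_zero.1 h0)
    · rw [map_sub, map_smul, smul_eq_mul]
      field_simp
      ring

private theorem B1_case {u v w : V} (hu : T.IsCentre u) (h : T.Orb u v)
    (hp : ¬ T.Adj u v) (h1 : T.Adj u w) (h2 : T.Adj w v) {φ : V'} (hφ : T.S u φ)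
    (hw : T.e w φ = 0) : T.S w φ ∧ T.S v φ := by
  have hkill : T.e v φ = 0 := by
    by_contra hne
    exact hp (adj_iff.2 ⟨(isCentre_iff.1 hu).1, φ, hφ, hne⟩)
  have hwu : T.Adj w u := T.adj_symm h1 (T.adj_isCentre h2)
  have hvw : T.Adj v w := T.adj_symm h2 (T.isCentre_orb h hu)
  have hSw : T.S w φ := T.dagger hφ hwu hw
  exact ⟨hSw, T.dagger hSw hvw hkill⟩

theorem perp_sub {u v : V} (hu : T.IsCentre u) (hnt : ¬ T.Thin u) (h : T.Orb u v)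
    (hp : ¬ T.Adj u v) {φ : V'} (hφ : T.S u φ) : T.S v φ := by
  obtain ⟨w, h1, h2⟩ := T.diam2 hu h
  have hkill : T.e v φ = 0 := by
    by_contra hne
    exact hp (adj_iff.2 ⟨(isCentre_iff.1 hu).1, φ, hφ, hne⟩)
  by_cases hw : T.e w φ = 0
  · exact (B1_case T hu h hp h1 h2 hφ hw).2
  · obtain ⟨ψ₀, hψ₀, hSψ₀, hwψ₀⟩ := T.exists_ker hnt w
    obtain ⟨hSw, hSv⟩ := B1_case T hu h hp h1 h2 hSψ₀ hwψ₀
    have hφ0 : φ ≠ 0 := by
      rintro rfl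
      exact hw (by simp)
    have hadj : T.swap.Adj ψ₀ φ := adj_iff.2 ⟨hψ₀, w, hSw, hw⟩
    have hcen : T.swap.IsCentre φ := isCentre_iff.2 ⟨hφ0, u, (isCentre_iff.1 hu).1, hφ⟩
    obtain ⟨-, a, haS, hae⟩ := adj_iff.1 (T.swap.adj_symm hadj hcen)
    exact T.obs1 hSv haS hkill hae

end Cfsg.Agent.Lib.H57McL.TSys
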