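import Cfsg.Agent.Lib.H57McLDefs
import Cfsg.Agent.Lib.H57McLB1

set_option autoImplicit false
set_option linter.unusedSectionVars false

namespace Cfsg.Agent.Lib.H57McL.TSys

variable {F V V' G : Type*} [Field F] [AddCommGroup V] [Module F V]
  [AddCommGroup V'] [Module F V'] [Group G] [Finite V] [Finite V'] (T : TSys F V V' G)

theorem perp_prop {u v : V} (hu : T.IsCentre u) (hnt : ¬ T.Thin u) (h : T.Orb u v)
    (hp : ¬ T.Adj u v) : ∃ c : F, v = c • u := by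
  obtain ⟨g, hadj⟩ := T.exists_adj hu
  set w := T.a g u with hw
  have hwc : T.IsCentre w := T.isCentre_orb (T.orb_map g u) hu
  obtain ⟨-, φ, hφ, hwφ⟩ := adj_iff.1 hadj
  obtain ⟨-, ψ₁, hψ₁, huψ₁⟩ := adj_iff.1 (T.adj_symm hadj hwc)
  refine ⟨T.e v ψ₁ / T.e u ψ₁, ?_⟩
  by_contra hne
  have hne' : v - (T.e v ψ₁ / T.e u ψ₁) • u ≠ 0 := fun h0 => hne (sub_eq_zero.1 h0)
  have hS'' : T.S (v - (T.e v ψ₁ / T.e u ψ₁) • u) φ :=
    T.S_sub_left (T.perp_sub hu hnt h hp hφ) (T.S_smul_left _ _ _ hφ)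
  have hadj2 : T.Adj (v - (T.e v ψ₁ / T.e u ψ₁) • u) w := adj_iff.2 ⟨hne', φ, hS'', hwφ⟩
  obtain ⟨-, ψ, hψ, hψne⟩ := adj_iff.1 (T.adj_symm hadj2 hwc)
  apply hψne
  have hψ' : T.S w (ψ - (T.e u ψ / T.e u ψ₁) • ψ₁) :=
    T.S_sub_right hψ (T.S_smul_right _ _ _ hψ₁)
  have hk : T.e u (ψ - (T.e u ψ / T.e u ψ₁) • ψ₁) = 0 := by
    rw [map_sub, map_smul, smul_eq_mul]
    field_simp
    ring
  have hSu : T.S u (ψ - (T.e u ψ / T.e u ψ₁) • ψ₁) := T.obs1 hφ hψ' hk hwφ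
  have hSv := T.perp_sub hu hnt h hp hSu
  have h0 := T.S_perp _ _ hSv
  rw [map_sub, map_smul, smul_eq_mul] at h0
  rw [map_sub, map_smul, LinearMap.sub_apply, LinearMap.smul_apply, smul_eq_mul]
  field_simp at h0 ⊢
  linear_combination h0

end Cfsg.Agent.Lib.H57McL.TSys
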