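import Cfsg.Agent.Lib.H57McLDefs
import Cfsg.Agent.Lib.H57McLB2

set_option autoImplicit false
set_option linter.unusedSectionVars false

namespace Cfsg.Agent.Lib.H57McL.TSys

variable {F V V' G : Type*} [Field F] [AddCommGroup V] [Module F V]
  [AddCommGroup V'] [Module F V'] [Group G] [Finite V] [Finite V'] (T : TSys F V V' G)

theorem orb_add_nonthin {u₀ x y : V} (hu : T.IsCentre u₀) (hnt : ¬ T.Thin u₀)
    (hx : T.Orb u₀ x) (hy : T.Orb u₀ y) (hxy : x + y ≠ 0) : T.Orb u₀ (x + y) := by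
  have hxc : T.IsCentre x := T.isCentre_orb hx hu
  have hyc : T.IsCentre y := T.isCentre_orb hy hu
  have hxnt : ¬ T.Thin x := fun h => hnt (T.thin_orb (T.orb_symm hx) h)
  have hxy' : T.Orb x y := T.orb_trans (T.orb_symm hx) hy
  apply T.orb_trans hx
  by_cases hadj : T.Adj x y
  · have := T.adj_add (T.adj_symm hadj hyc) (1 : F)
    rwa [one_smul] at this
  · obtain ⟨c, rfl⟩ := T.perp_prop hxc hxnt hxy' hadj
    have h1 : x + c • x = (1 + c) • x := by rw [add_smul, one_smul]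
    rw [h1] at hxy ⊢
    apply T.smul_orb hxc
    rintro h0
    rw [h0, zero_smul] at hxy
    exact hxy rfl

theorem axis_add_nonthin {u₀ x y : V} {φ ψ : V'} (hu : T.IsCentre u₀) (hnt : ¬ T.Thin u₀)
    (hx : T.Orb u₀ x) (hy : T.Orb u₀ y) (hφ : T.S x φ) (hψ : T.S y ψ) :
    ∃ z, T.Orb u₀ z ∧ T.S z (φ + ψ) := by
  have hxc : T.IsCentre x := T.isCentre_orb hx hu
  have hyc : T.IsCentre y := T.isCentre_orb hy hu
  have hxnt : ¬ T.Thin x := fun h => hnt (T.thin_orb (T.orb_symm hx) h)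
  have hxy' : T.Orb x y := T.orb_trans (T.orb_symm hx) hy
  by_cases h1 : T.e y φ = 0
  · by_cases h2 : T.e x ψ = 0
    · refine ⟨x, hx, T.S_add_right _ _ _ hφ ?_⟩
      by_cases hadj : T.Adj x y
      · obtain ⟨-, φ', hφ', hyφ'⟩ := adj_iff.1 hadj
        exact T.obs1 hφ' hψ h2 hyφ'
      · obtain ⟨c, rfl⟩ := T.perp_prop hxc hxnt hxy' hadj
        have hc : c ≠ 0 := by
          rintro rfl
          exact (isCentre_iff.1 hyc).1 (zero_smul _ _)
        have := T.S_smul_left c⁻¹ _ _ hψ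
        rwa [smul_smul, inv_mul_cancel₀ hc, one_smul] at this
    · obtain ⟨hS, hO⟩ := T.conj hψ (T.S_smul_right (-(T.e x ψ)⁻¹) _ _ hφ)
      refine ⟨_, T.orb_trans hy hO, ?_⟩
      have : ψ - T.e x ψ • (-(T.e x ψ)⁻¹ • φ) = φ + ψ := by
        rw [smul_smul, mul_neg, mul_inv_cancel₀ h2, neg_smul, one_smul]
        abel
      rwa [this] at hS
  · obtain ⟨hS, hO⟩ := T.conj hφ (T.S_smul_right (-(T.e y φ)⁻¹) _ _ hψ)
    refine ⟨_, T.orb_trans hx hO, ?_⟩
    have : φ - T.e y φ • (-(T.e y φ)⁻¹ • ψ) = φ + ψ := by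
      rw [smul_smul, mul_neg, mul_inv_cancel₀ h1, neg_smul, one_smul]
      abel
    rwa [this] at hS

end Cfsg.Agent.Lib.H57McL.TSys
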