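import Cfsg.Agent.Lib.H57McLDefs
import Cfsg.Agent.Lib.H57McLB3

set_option autoImplicit false
set_option linter.unusedSectionVars false

namespace Cfsg.Agent.Lib.H57McL.TSys

variable {F V V' G : Type*} [Field F] [AddCommGroup V] [Module F V]
  [AddCommGroup V'] [Module F V'] [Group G] [Finite V] [Finite V'] (T : TSys F V V' G)

/-- in a thin orbit, perpendicularity of pairs is symmetric -/
theorem perp_symm {x y : V} {φ ψ : V'} (hx : x ≠ 0) (hy : y ≠ 0) (hty : T.Thin y)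
    (hφ : T.S x φ) (hφ0 : φ ≠ 0) (hψ : T.S y ψ) (hψ0 : ψ ≠ 0) (h : T.e x ψ = 0) :
    T.e y φ = 0 := by
  by_contra hne
  have h1 : T.Adj x y := adj_iff.2 ⟨hx, φ, hφ, hne⟩
  have h2 : T.Adj y x := T.adj_symm h1 (isCentre_iff.2 ⟨hy, ψ, hψ0, hψ⟩)
  obtain ⟨-, ψ', hψ', hne'⟩ := adj_iff.1 h2
  obtain ⟨c, rfl⟩ := (thin_iff.1 hty) ψ ψ' hψ hψ' hψ0
  apply hne'
  rw [map_smul, h, smul_zero]

variable {T} {u₀ : V} {f₀ : V'}

theorem TB.isCentre (hB : T.TB u₀ f₀) : T.IsCentre u₀ := by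
  exact isCentre_iff.2 ⟨hB.ne, f₀, hB.hf, hB.hS⟩

theorem TB.thin_of_orb (hB : T.TB u₀ f₀) {x : V} (hx : T.Orb u₀ x) : T.Thin x := by
  exact T.thin_orb hx hB.thin

theorem TB.ne_of_orb (hB : T.TB u₀ f₀) {x : V} (hx : T.Orb u₀ x) : x ≠ 0 := by
  exact T.orb_ne hx hB.ne

theorem Nrm.ne (hB : T.TB u₀ f₀) {v : V} {φ : V'} (h : T.Nrm u₀ f₀ v φ) : φ ≠ 0 := by
  obtain ⟨-, -, h3, h4⟩ := nrm_iff.1 h
  rintro rfl
  rw [map_zero] at h4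
  exact h3 (neg_eq_zero.1 h4.symm)

end Cfsg.Agent.Lib.H57McL.TSys
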