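import Cfsg.Agent.Lib.H57McLDefs
import Cfsg.Agent.Lib.H57McLC1

set_option autoImplicit false
set_option linter.unusedSectionVars false

namespace Cfsg.Agent.Lib.H57McL.TSys

variable {F V V' G : Type*} [Field F] [AddCommGroup V] [Module F V]
  [AddCommGroup V'] [Module F V'] [Group G] [Finite V] [Finite V'] (T : TSys F V V' G)

variable {T} {u₀ : V} {f₀ : V'}

theorem nrm_exists (hB : T.TB u₀ f₀) {v : V} (hv : T.Orb u₀ v) (h : T.e v f₀ ≠ 0) :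
    ∃ φ, T.Nrm u₀ f₀ v φ := by
  obtain ⟨hv0, ψ, hψ0, hψ⟩ := isCentre_iff.1 (T.isCentre_orb hv hB.isCentre)
  have h1 : T.e u₀ ψ ≠ 0 := by
    intro h0
    exact h (T.perp_symm hB.ne hv0 (hB.thin_of_orb hv) hB.hS hB.hf hψ hψ0 h0)
  refine ⟨(-(T.e v f₀) * (T.e u₀ ψ)⁻¹) • ψ, nrm_iff.2 ⟨hv, T.S_smul_right _ _ _ hψ, h, ?_⟩⟩
  rw [map_smul, smul_eq_mul, mul_assoc, inv_mul_cancel₀ h1, mul_one]

theorem nrm_line (hB : T.TB u₀ f₀) {v : V} {φ : V'} (h : T.Nrm u₀ f₀ v φ) (a : F) :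
    T.Nrm u₀ f₀ (v + a • u₀) (φ + a • f₀) := by
  obtain ⟨h1, h2, h3, h4⟩ := nrm_iff.1 h
  obtain ⟨hc, ho⟩ := T.conj h2 (T.S_smul_right (a * (T.e v f₀)⁻¹) _ _ hB.hS)
  have e1 : T.e v ((a * (T.e v f₀)⁻¹) • f₀) = a := by
    rw [map_smul, smul_eq_mul, mul_assoc, inv_mul_cancel₀ h3, mul_one]
  have e2 : φ - T.e u₀ φ • (a * (T.e v f₀)⁻¹) • f₀ = φ + a • f₀ := by
    rw [h4, smul_smul, neg_mul, neg_smul, sub_neg_eq_add, mul_comm a, ← mul_assoc,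
      mul_inv_cancel₀ h3, one_mul]
  rw [e1] at hc ho
  rw [e2] at hc
  refine nrm_iff.2 ⟨T.orb_trans h1 ho, hc, ?_, ?_⟩
  · rw [map_add, LinearMap.add_apply, map_smul, LinearMap.smul_apply, T.S_perp _ _ hB.hS,
      smul_zero, add_zero]
    exact h3
  · rw [map_add, map_smul, T.S_perp _ _ hB.hS, smul_zero, add_zero, h4, map_add,
      LinearMap.add_apply, map_smul, LinearMap.smul_apply, T.S_perp _ _ hB.hS, smul_zero, add_zero]

end Cfsg.Agent.Lib.H57McL.TSys
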