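import Cfsg.Agent.Lib.H57McLDefs
import Cfsg.Agent.Lib.H57McLC1b

set_option autoImplicit false
set_option linter.unusedSectionVars false

namespace Cfsg.Agent.Lib.H57McL.TSys

variable {F V V' G : Type*} [Field F] [AddCommGroup V] [Module F V]
  [AddCommGroup V'] [Module F V'] [Group G] [Finite V] [Finite V'] (T : TSys F V V' G)

variable {T} {u₀ : V} {f₀ : V'}

theorem nrm_skew (hB : T.TB u₀ f₀) {v w : V} {φ ψ : V'} (h : T.Nrm u₀ f₀ v φ)
    (h' : T.Nrm u₀ f₀ w ψ) : T.e v ψ = - T.e w φ := by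
  obtain ⟨w1, w2, w3, w4⟩ := nrm_iff.1 h'
  set a : F := T.e v ψ * (T.e w f₀)⁻¹ with ha
  have hl := nrm_line hB h a
  obtain ⟨l1, l2, l3, l4⟩ := nrm_iff.1 hl
  have e1 : T.e (v + a • u₀) ψ = 0 := by
    rw [map_add, LinearMap.add_apply, map_smul, LinearMap.smul_apply, w4, smul_eq_mul, ha,
      mul_neg, mul_assoc, inv_mul_cancel₀ w3, mul_one, add_neg_cancel]
  have e2 : T.e w (φ + a • f₀) = 0 :=
    T.perp_symm (hB.ne_of_orb l1) (hB.ne_of_orb w1) (hB.thin_of_orb w1) l2 (Nrm.ne hB hl) w2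
      (Nrm.ne hB h') e1
  rw [map_add, map_smul, smul_eq_mul, ha, mul_assoc, inv_mul_cancel₀ w3, mul_one] at e2
  linear_combination e2

end Cfsg.Agent.Lib.H57McL.TSys
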