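import Cfsg.Agent.Lib.H57McLDefs
import Cfsg.Agent.Lib.H57McLC2

set_option autoImplicit false
set_option linter.unusedSectionVars false

namespace Cfsg.Agent.Lib.H57McL.TSys

variable {F V V' G : Type*} [Field F] [AddCommGroup V] [Module F V]
  [AddCommGroup V'] [Module F V'] [Group G] [Finite V] [Finite V'] (T : TSys F V V' G)

variable {T} {u₀ : V} {f₀ : V'}

theorem nrm_ext (hB : T.TB u₀ f₀) {w : V} (hw : T.Orb u₀ w) (h : T.e w f₀ = 0) :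
    ∃ v φ ψ, T.Nrm u₀ f₀ v φ ∧ T.S w ψ ∧ T.Nrm u₀ f₀ (v + w) (φ + ψ) := by
  obtain ⟨v, hav, havw⟩ := T.diam2 hB.isCentre hw
  have hvc : T.IsCentre v := T.adj_isCentre havw
  have hv : T.Orb u₀ v := T.orb_of_adj hav hvc
  have hvf : T.e v f₀ ≠ 0 := by
    obtain ⟨-, φ₀, hS0, he0⟩ := adj_iff.1 hav
    obtain ⟨c, rfl⟩ := thin_iff.1 hB.thin f₀ φ₀ hB.hS hS0 hB.hf
    intro h0
    apply he0
    rw [map_smul, h0, smul_zero]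
  obtain ⟨φ, hN⟩ := nrm_exists hB hv hvf
  obtain ⟨-, hSφ, -, heφ⟩ := nrm_iff.1 hN
  have hφ0 : φ ≠ 0 := Nrm.ne hB hN
  obtain ⟨hw0, g, hg0, hSg⟩ := isCentre_iff.1 (T.isCentre_orb hw hB.isCentre)
  have hv0 : v ≠ 0 := hB.ne_of_orb hv
  have hwφ : T.e w φ ≠ 0 := by
    obtain ⟨-, φ', hS', he'⟩ := adj_iff.1 havw
    obtain ⟨c, rfl⟩ := thin_iff.1 (hB.thin_of_orb hv) φ φ' hSφ hS' hφ0
    intro h0
    apply he'
    rw [map_smul, h0, smul_zero]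
  have hvg : T.e v g ≠ 0 := fun h0 =>
    hwφ (T.perp_symm hv0 hw0 (hB.thin_of_orb hw) hSφ hφ0 hSg hg0 h0)
  have hu0g : T.e u₀ g = 0 := T.perp_symm hw0 hB.ne hB.thin hSg hg0 hB.hS hB.hf h
  obtain ⟨ψ, hψ⟩ : ∃ ψ, ψ = (-(T.e w φ / T.e v g)) • g := ⟨_, rfl⟩
  have hSψ : T.S w ψ := hψ ▸ T.S_smul_right _ _ _ hSg
  have hvψ : T.e v ψ = - T.e w φ := by
    rw [hψ, map_smul, smul_eq_mul]
    field_simp
  have hvψ0 : T.e v ψ ≠ 0 := by rw [hvψ]; exact neg_ne_zero.2 hwφ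
  have hu0ψ : T.e u₀ ψ = 0 := by rw [hψ, map_smul, hu0g, smul_zero]
  obtain ⟨hc1, hc2⟩ := T.conj hSφ (T.S_smul_right (T.e v ψ)⁻¹ _ _ hSψ)
  have e1 : T.e v ((T.e v ψ)⁻¹ • ψ) = 1 := by
    rw [map_smul, smul_eq_mul, inv_mul_cancel₀ hvψ0]
  have e2 : φ - T.e w φ • (T.e v ψ)⁻¹ • ψ = φ + ψ := by
    rw [smul_smul, hvψ]
    have : T.e w φ * (-T.e w φ)⁻¹ = -1 := by field_simp
    rw [this]
    simp
  rw [e1, one_smul] at hc1 hc2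
  rw [e2] at hc1
  refine ⟨v, φ, ψ, hN, hSψ, nrm_iff.2 ⟨T.orb_trans hv hc2, hc1, ?_, ?_⟩⟩
  · rw [map_add, LinearMap.add_apply, h, add_zero]; exact hvf
  · rw [map_add, hu0ψ, add_zero, heφ, map_add, LinearMap.add_apply, h, add_zero]

end Cfsg.Agent.Lib.H57McL.TSys
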