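import Cfsg.Agent.Lib.H57McLDefs
import Cfsg.Agent.Lib.H57McLC3

set_option autoImplicit false
set_option linter.unusedSectionVars false

namespace Cfsg.Agent.Lib.H57McL.TSys

variable {F V V' G : Type*} [Field F] [AddCommGroup V] [Module F V]
  [AddCommGroup V'] [Module F V'] [Group G] [Finite V] [Finite V'] (T : TSys F V V' G)

variable {T} {u₀ : V} {f₀ : V'}

theorem nrm_two (h2 : (2 : F) ≠ 0) (hB : T.TB u₀ f₀) {v : V} {φ : V'} (h : T.Nrm u₀ f₀ v φ) :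
    T.Nrm u₀ f₀ (v + v) (φ + φ) := by
  obtain ⟨hO, hS, hne, he⟩ := nrm_iff.1 h
  have hvc : T.IsCentre v := T.isCentre_orb hO hB.isCentre
  refine nrm_iff.2 ⟨?_, ?_, ?_, ?_⟩
  · have := T.smul_orb hvc h2
    rw [two_smul] at this
    exact T.orb_trans hO this
  · have h1 : T.S (v + v) φ := T.S_add_left _ _ _ hS hS
    exact T.S_add_right _ _ _ h1 h1
  · rw [map_add, LinearMap.add_apply, ← two_mul]
    exact mul_ne_zero h2 hne
  · rw [map_add, map_add, LinearMap.add_apply, he]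
    ring

theorem pp_exists (h2 : (2 : F) ≠ 0) (hB : T.TB u₀ f₀) {y : V} (hy : T.Orb u₀ y) :
    ∃ ψ, T.PP u₀ f₀ y ψ := by
  by_cases h : T.e y f₀ = 0
  · obtain ⟨v, φ, ψ, h1, h3, h4⟩ := nrm_ext hB hy h
    exact ⟨ψ, pp_iff.2 ⟨hy, h3, v, φ, h1, h4⟩⟩
  · obtain ⟨φ, hφ⟩ := nrm_exists hB hy h
    exact ⟨φ, pp_iff.2 ⟨hy, (nrm_iff.1 hφ).2.1, y, φ, hφ, nrm_two h2 hB hφ⟩⟩

end Cfsg.Agent.Lib.H57McL.TSys
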