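import Cfsg.Agent.Lib.H57McLDefs
import Cfsg.Agent.Lib.H57McLC4

set_option autoImplicit false
set_option linter.unusedSectionVars false

namespace Cfsg.Agent.Lib.H57McL.TSys

variable {F V V' G : Type*} [Field F] [AddCommGroup V] [Module F V]
  [AddCommGroup V'] [Module F V'] [Group G] [Finite V] [Finite V'] (T : TSys F V V' G)

variable {T} {u₀ : V} {f₀ : V'}

theorem pp_skew (hB : T.TB u₀ f₀) {x y : V} {φ ψ : V'} (h : T.PP u₀ f₀ x φ)
    (h' : T.PP u₀ f₀ y ψ) : T.e y φ = - T.e x ψ := by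
  obtain ⟨-, -, v, α, hv1, hv2⟩ := pp_iff.1 h
  obtain ⟨-, -, v', β, hw1, hw2⟩ := pp_iff.1 h'
  have e1 := nrm_skew hB hv1 hw1
  have e2 := nrm_skew hB hv1 hw2
  have e3 := nrm_skew hB hv2 hw1
  have e4 := nrm_skew hB hv2 hw2
  simp only [map_add, LinearMap.add_apply] at e1 e2 e3 e4
  linear_combination e4 - e2 - e3 + e1

theorem pp_ne (hB : T.TB u₀ f₀) {y : V} {ψ : V'} (h : T.PP u₀ f₀ y ψ) : ψ ≠ 0 := by
  rintro rfl
  obtain ⟨hy, -, v, φ, hv1, hv2⟩ := pp_iff.1 h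
  obtain ⟨-, hS1, hne1, he1⟩ := nrm_iff.1 hv1
  obtain ⟨-, hS2, -, he2⟩ := nrm_iff.1 hv2
  rw [add_zero] at hS2 he2
  have hSy : T.S y φ := by
    have := T.S_sub_left hS2 hS1
    rwa [add_sub_cancel_left] at this
  have hyf : T.e y f₀ = 0 := by
    rw [map_add, LinearMap.add_apply] at he2
    linear_combination he2 - he1
  have := T.perp_symm (hB.ne_of_orb hy) hB.ne hB.thin hSy (Nrm.ne hB hv1) hB.hS hB.hf hyf
  apply hne1
  rw [this] at he1
  linear_combination he1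

end Cfsg.Agent.Lib.H57McL.TSys
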