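import Cfsg.Agent.Lib.H57McLDefs
import Cfsg.Agent.Lib.H57McLC4b

set_option autoImplicit false
set_option linter.unusedSectionVars false

namespace Cfsg.Agent.Lib.H57McL.TSys

variable {F V V' G : Type*} [Field F] [AddCommGroup V] [Module F V]
  [AddCommGroup V'] [Module F V'] [Group G] [Finite V] [Finite V'] (T : TSys F V V' G)

variable {T} {u₀ : V} {f₀ : V'}

theorem pp_of_skew (h2 : (2 : F) ≠ 0) (hB : T.TB u₀ f₀) {z : V} {θ : V'} (hz : T.Orb u₀ z)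
    (hS : T.S z θ) (h : ∀ x φ, T.PP u₀ f₀ x φ → T.e x θ = - T.e z φ) : T.PP u₀ f₀ z θ := by
  obtain ⟨θ₀, h0⟩ := pp_exists h2 hB hz
  have hθ0 : θ₀ ≠ 0 := pp_ne hB h0
  have hS0 : T.S z θ₀ := (pp_iff.1 h0).2.1
  obtain ⟨c, rfl⟩ := thin_iff.1 (hB.thin_of_orb hz) θ₀ θ hS0 hS hθ0
  obtain ⟨g, hg⟩ := T.K z θ₀ hS0 (hB.ne_of_orb hz) hθ0
  obtain ⟨φx, hx⟩ := pp_exists h2 hB (T.orb_trans hz (T.orb_map g z))
  have e1 := h _ _ hx
  have e2 := pp_skew hB h0 hx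
  rw [map_smul, smul_eq_mul, ← e2] at e1
  have hc : c = 1 := by
    have : (c - 1) * T.e (T.a g z) θ₀ = 0 := by linear_combination e1
    rcases mul_eq_zero.1 this with h3 | h3
    · linear_combination h3
    · exact absurd h3 hg
  rw [hc, one_smul]
  exact h0

theorem pp_unique (h2 : (2 : F) ≠ 0) (hB : T.TB u₀ f₀) {y : V} {ψ ψ' : V'}
    (h : T.PP u₀ f₀ y ψ) (h' : T.PP u₀ f₀ y ψ') : ψ = ψ' := by
  have hy : T.Orb u₀ y := (pp_iff.1 h).1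
  have hψ0 : ψ ≠ 0 := pp_ne hB h
  have hS0 : T.S y ψ := (pp_iff.1 h).2.1
  obtain ⟨c, rfl⟩ := thin_iff.1 (hB.thin_of_orb hy) ψ ψ' hS0 (pp_iff.1 h').2.1 hψ0
  obtain ⟨g, hg⟩ := T.K y ψ hS0 (hB.ne_of_orb hy) hψ0
  obtain ⟨φx, hx⟩ := pp_exists h2 hB (T.orb_trans hy (T.orb_map g y))
  have e1 := pp_skew hB h' hx
  have e2 := pp_skew hB h hx
  rw [map_smul, smul_eq_mul, ← e2] at e1
  have hc : c = 1 := by
    have : (c - 1) * T.e (T.a g y) ψ = 0 := by linear_combination e1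
    rcases mul_eq_zero.1 this with h3 | h3
    · linear_combination h3
    · exact absurd h3 hg
  rw [hc, one_smul]

end Cfsg.Agent.Lib.H57McL.TSys
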