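import Cfsg.Agent.Lib.H57McLDefs
import Cfsg.Agent.Lib.H57McLC5

set_option autoImplicit false
set_option linter.unusedSectionVars false

namespace Cfsg.Agent.Lib.H57McL.TSys

variable {F V V' G : Type*} [Field F] [AddCommGroup V] [Module F V]
  [AddCommGroup V'] [Module F V'] [Group G] [Finite V] [Finite V'] (T : TSys F V V' G)

variable {T} {u₀ : V} {f₀ : V'}

theorem pp_smul (h2 : (2 : F) ≠ 0) (hB : T.TB u₀ f₀) {y : V} {ψ : V'} (h : T.PP u₀ f₀ y ψ)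
    {c : F} (hc : c ≠ 0) : T.PP u₀ f₀ (c • y) (c • ψ) := by
  have hy : T.Orb u₀ y := (pp_iff.1 h).1
  have hS0 : T.S y ψ := (pp_iff.1 h).2.1
  refine pp_of_skew h2 hB (T.orb_trans hy (T.smul_orb (T.isCentre_orb hy hB.isCentre) hc))
    (T.S_smul_left _ _ _ (T.S_smul_right _ _ _ hS0)) ?_
  intro x φ hx
  rw [map_smul, map_smul, LinearMap.smul_apply, pp_skew hB h hx, smul_neg]

theorem pp_add_adj (h2 : (2 : F) ≠ 0) (hB : T.TB u₀ f₀) {y w : V} {ψ χ : V'}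
    (h : T.PP u₀ f₀ y ψ) (h' : T.PP u₀ f₀ w χ) (hadj : T.e w ψ ≠ 0) :
    T.PP u₀ f₀ (y + w) (ψ + χ) := by
  have hy : T.Orb u₀ y := (pp_iff.1 h).1
  have hS0 : T.S y ψ := (pp_iff.1 h).2.1
  have hS1 : T.S w χ := (pp_iff.1 h').2.1
  obtain ⟨hc1, hc2⟩ := T.conj hS0 (T.S_smul_right (-(T.e w ψ)⁻¹) _ _ hS1)
  have e0 : T.e y χ = - T.e w ψ := pp_skew hB h' h
  have e1 : T.e y ((-(T.e w ψ)⁻¹) • χ) = 1 := by
    rw [map_smul, smul_eq_mul, e0]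
    field_simp
  have e2 : ψ - T.e w ψ • (-(T.e w ψ)⁻¹) • χ = ψ + χ := by
    rw [smul_smul]
    have : T.e w ψ * (-(T.e w ψ)⁻¹) = -1 := by field_simp
    rw [this]
    simp
  rw [e1, one_smul] at hc1 hc2
  rw [e2] at hc1
  refine pp_of_skew h2 hB (T.orb_trans hy hc2) hc1 ?_
  intro x φ hx
  rw [map_add, map_add, LinearMap.add_apply, pp_skew hB h hx, pp_skew hB h' hx]
  ring

end Cfsg.Agent.Lib.H57McL.TSys
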