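import Cfsg.Agent.Lib.H57McLDefs
import Cfsg.Agent.Lib.H57McLC5b

set_option autoImplicit false
set_option linter.unusedSectionVars false

namespace Cfsg.Agent.Lib.H57McL.TSys

variable {F V V' G : Type*} [Field F] [AddCommGroup V] [Module F V]
  [AddCommGroup V'] [Module F V'] [Group G] [Finite V] [Finite V'] (T : TSys F V V' G)

variable {T} {u₀ : V} {f₀ : V'}

/-- the radical of the form on `W u₀` -/
def Rad (T : TSys F V V' G) (u₀ : V) (f₀ : V') : Submodule F V where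
  carrier := {x | x ∈ T.W u₀ ∧ ∀ z ζ, T.PP u₀ f₀ z ζ → T.e x ζ = 0}
  add_mem' := by
    rintro a b ⟨ha, ha'⟩ ⟨hb, hb'⟩
    exact ⟨(T.W u₀).add_mem ha hb, fun z ζ h => by simp [ha' z ζ h, hb' z ζ h]⟩
  zero_mem' := ⟨(T.W u₀).zero_mem, fun z ζ _ => by simp⟩
  smul_mem' := by
    rintro c a ⟨ha, ha'⟩
    exact ⟨(T.W u₀).smul_mem c ha, fun z ζ h => by simp [ha' z ζ h]⟩

theorem mem_Rad {x : V} :
    x ∈ Rad T u₀ f₀ ↔ x ∈ T.W u₀ ∧ ∀ z ζ, T.PP u₀ f₀ z ζ → T.e x ζ = 0 := Iff.rfl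

theorem W_inv (g : G) {x : V} (hx : x ∈ T.W u₀) : T.a g x ∈ T.W u₀ := by
  rw [W_def] at hx ⊢
  induction hx using Submodule.span_induction with
  | mem x hx => exact Submodule.subset_span (T.orb_trans hx (T.orb_map g x))
  | zero => rw [map_zero]; exact Submodule.zero_mem _
  | add x y _ _ hx hy => rw [map_add]; exact Submodule.add_mem _ hx hy
  | smul c x _ hx => rw [map_smul]; exact Submodule.smul_mem _ c hx

theorem Rad_inv (h2 : (2 : F) ≠ 0) (hB : T.TB u₀ f₀) (g : G) {x : V} (hx : x ∈ Rad T u₀ f₀) :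
    T.a g x ∈ Rad T u₀ f₀ := by
  obtain ⟨hxW, hx0⟩ := mem_Rad.1 hx
  refine mem_Rad.2 ⟨W_inv g hxW, fun z ζ hz => ?_⟩
  obtain ⟨z1, z2, -⟩ := pp_iff.1 hz
  rw [T.e_inv']
  have ho : T.Orb u₀ (T.a g⁻¹ z) := T.orb_trans z1 (T.orb_map g⁻¹ z)
  obtain ⟨ζ', hζ'⟩ := pp_exists h2 hB ho
  obtain ⟨-, z2', -⟩ := pp_iff.1 hζ'
  obtain ⟨c, hc⟩ := (thin_iff.1 (hB.thin_of_orb ho)) ζ' _ z2' (T.S_inv g⁻¹ z ζ z2) (pp_ne hB hζ')
  rw [hc, map_smul, hx0 _ _ hζ', smul_zero]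

end Cfsg.Agent.Lib.H57McL.TSys
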