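import Cfsg.Agent.Lib.H57McLDefs
import Cfsg.Agent.Lib.H57McLC6

set_option autoImplicit false
set_option linter.unusedSectionVars false

namespace Cfsg.Agent.Lib.H57McL.TSys

variable {F V V' G : Type*} [Field F] [AddCommGroup V] [Module F V]
  [AddCommGroup V'] [Module F V'] [Group G] [Finite V] [Finite V'] (T : TSys F V V' G)

variable {T} {u₀ : V} {f₀ : V'}

theorem rad_free (h2 : (2 : F) ≠ 0) (hN : T.NProp) (hB : T.TB u₀ f₀) {y w : V} {ψ χ : V'}
    (h : T.PP u₀ f₀ y ψ) (h' : T.PP u₀ f₀ w χ) (hperp : T.e w ψ = 0) (hne : y + w ≠ 0) :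
    ∃ z ζ, T.PP u₀ f₀ z ζ ∧ T.e (y + w) ζ ≠ 0 := by
  by_contra hcon
  push Not at hcon
  have hyO : T.Orb u₀ y := (pp_iff.mp h).1
  have hwO : T.Orb u₀ w := (pp_iff.mp h').1
  have hyS : T.S y ψ := (pp_iff.mp h).2.1
  have hwS : T.S w χ := (pp_iff.mp h').2.1
  have hyW : y ∈ T.W u₀ := by rw [W_def]; exact Submodule.subset_span hyO
  have hwW : w ∈ T.W u₀ := by rw [W_def]; exact Submodule.subset_span hwO
  have hrad : y + w ∈ Rad T u₀ f₀ := mem_Rad.mpr ⟨(T.W u₀).add_mem hyW hwW, hcon⟩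
  obtain ⟨g₂, hg₂, -⟩ := T.tv w χ hwS
  obtain ⟨g₁, hg₁, -⟩ := T.tv (-y) ψ (by simpa using T.S_smul_left (-1) y ψ hyS)
  have hq : ∀ x, T.a (g₁ * g₂) x = x + T.e x χ • w - T.e x ψ • y := by
    intro x
    rw [map_mul, LinearEquiv.mul_apply, hg₂, hg₁]
    simp only [map_add, map_smul, LinearMap.add_apply, LinearMap.smul_apply, hperp, smul_eq_mul,
      mul_zero, add_zero, smul_neg]
    abel
  have hW : ∀ x ∈ T.W u₀, T.e x χ = - T.e x ψ := by
    intro x hx
    rw [W_def] at hx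
    induction hx using Submodule.span_induction with
    | mem x hx =>
      obtain ⟨φx, hφx⟩ := pp_exists h2 hB hx
      have h1 := pp_skew hB hφx h'
      have h3 := pp_skew hB hφx h
      have h4 := hcon x φx hφx
      rw [map_add, LinearMap.add_apply, h1, h3] at h4
      linear_combination -h4
    | zero => simp
    | add a b _ _ ha hb =>
      rw [map_add, LinearMap.add_apply, LinearMap.add_apply, ha, hb]; ring
    | smul c a _ ha =>
      rw [map_smul, LinearMap.smul_apply, LinearMap.smul_apply, ha]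
      simp
  have hfix : ∀ x, T.a (g₁ * g₂) x = x := by
    refine (nProp_iff.mp hN) (Rad T u₀ f₀) (T.W u₀) (fun x hx => (mem_Rad.mp hx).1)
      (fun g x hx => Rad_inv h2 hB g hx) (fun g x hx => W_inv g hx) (g₁ * g₂) ?_ ?_ ?_
    · intro x
      rw [hq]
      have : x + T.e x χ • w - T.e x ψ • y - x = T.e x χ • w - T.e x ψ • y := by abel
      rw [this]
      exact (T.W u₀).sub_mem ((T.W u₀).smul_mem _ hwW) ((T.W u₀).smul_mem _ hyW)
    · intro x hx
      rw [hq]
      have : x + T.e x χ • w - T.e x ψ • y - x = T.e x χ • (y + w) := by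
        have h5 : T.e x ψ = - T.e x χ := by rw [hW x hx, neg_neg]
        rw [h5, smul_add, neg_smul]
        abel
      rw [this]
      exact (Rad T u₀ f₀).smul_mem _ hrad
    · intro x hx
      rw [hq, (mem_Rad.mp hx).2 w χ h', (mem_Rad.mp hx).2 y ψ h]
      simp
  obtain ⟨g, hg⟩ := T.K w χ hwS (hB.ne_of_orb hwO) (pp_ne hB h')
  have hx'W : T.a g w ∈ T.W u₀ := W_inv g hwW
  have h6 := hfix (T.a g w)
  rw [hq] at h6
  have h7 : T.e (T.a g w) ψ = - T.e (T.a g w) χ := by rw [hW _ hx'W, neg_neg]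
  rw [h7] at h6
  have h8 : T.e (T.a g w) χ • (y + w) = 0 := by
    have : T.a g w + T.e (T.a g w) χ • w - -T.e (T.a g w) χ • y
        = T.a g w + T.e (T.a g w) χ • (y + w) := by
      rw [smul_add, neg_smul]; abel
    rw [this] at h6
    exact add_eq_left.mp h6
  rcases smul_eq_zero.mp h8 with h9 | h9
  · exact hg h9
  · exact hne h9

end Cfsg.Agent.Lib.H57McL.TSys
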