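import Cfsg.Agent.Lib.H57McLDefs
import Cfsg.Agent.Lib.H57McLC7

set_option autoImplicit false
set_option linter.unusedSectionVars false

namespace Cfsg.Agent.Lib.H57McL.TSys

variable {F V V' G : Type*} [Field F] [AddCommGroup V] [Module F V]
  [AddCommGroup V'] [Module F V'] [Group G] [Finite V] [Finite V'] (T : TSys F V V' G)

variable {T} {u₀ : V} {f₀ : V'}

/-- a common neighbour, as a compatible pair -/
theorem pp_common (h2 : (2 : F) ≠ 0) (hB : T.TB u₀ f₀) {y w : V} {ψ χ : V'}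
    (h : T.PP u₀ f₀ y ψ) (h' : T.PP u₀ f₀ w χ) :
    ∃ z ζ, T.PP u₀ f₀ z ζ ∧ T.e y ζ ≠ 0 ∧ T.e w ζ ≠ 0 := by
  have hyO : T.Orb u₀ y := (pp_iff.mp h).1
  have hwO : T.Orb u₀ w := (pp_iff.mp h').1
  have hyC : T.IsCentre y := T.isCentre_orb hyO hB.isCentre
  obtain ⟨z, hyz, hzw⟩ := T.diam2 hyC (T.orb_trans (T.orb_symm hyO) hwO)
  have hzC : T.IsCentre z := T.adj_isCentre hzw
  have hzO : T.Orb u₀ z := T.orb_trans hyO (T.orb_of_adj hyz hzC)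
  have hzy : T.Adj z y := T.adj_symm hyz hzC
  obtain ⟨ζ, hζ⟩ := pp_exists h2 hB hzO
  have hthin := thin_iff.mp (hB.thin_of_orb hzO)
  refine ⟨z, ζ, hζ, ?_, ?_⟩
  · obtain ⟨-, φ, hφ, hne⟩ := adj_iff.mp hzy
    obtain ⟨c, hc⟩ := hthin ζ φ (pp_iff.mp hζ).2.1 hφ (pp_ne hB hζ)
    intro h0
    apply hne
    rw [hc, map_smul, h0, smul_zero]
  · obtain ⟨-, φ, hφ, hne⟩ := adj_iff.mp hzw
    obtain ⟨c, hc⟩ := hthin ζ φ (pp_iff.mp hζ).2.1 hφ (pp_ne hB hζ)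
    intro h0
    apply hne
    rw [hc, map_smul, h0, smul_zero]

end Cfsg.Agent.Lib.H57McL.TSys
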