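import Cfsg.Agent.Lib.H57McLDefs
import Cfsg.Agent.Lib.H57McLC8

set_option autoImplicit false
set_option linter.unusedSectionVars false

namespace Cfsg.Agent.Lib.H57McL.TSys

variable {F V V' G : Type*} [Field F] [AddCommGroup V] [Module F V]
  [AddCommGroup V'] [Module F V'] [Group G] [Finite V] [Finite V'] (T : TSys F V V' G)

variable {T} {u₀ : V} {f₀ : V'}

theorem C8b_aux (h2 : (2 : F) ≠ 0) (hB : T.TB u₀ f₀) {y w z₁ z₄ : V} {ζ₁ ζ₄ : V'}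
    (h1 : T.PP u₀ f₀ z₁ ζ₁) (hy1 : T.e y ζ₁ ≠ 0) (hw1 : T.e w ζ₁ ≠ 0)
    (h4 : T.PP u₀ f₀ z₄ ζ₄) (hy4 : T.e y ζ₄ = 0) (hw4 : T.e w ζ₄ ≠ 0)
    (h41 : T.e z₄ ζ₁ ≠ 0) :
    ∃ z ζ, T.PP u₀ f₀ z ζ ∧ T.e y ζ ≠ 0 ∧ T.e w ζ ≠ 0 ∧ T.e (y + w) ζ ≠ 0 := by
  have key : ∀ c : F, c ≠ 0 → T.e w ζ₁ + c * T.e w ζ₄ ≠ 0 →
      T.e y ζ₁ + T.e w ζ₁ + c * T.e w ζ₄ ≠ 0 →
      ∃ z ζ, T.PP u₀ f₀ z ζ ∧ T.e y ζ ≠ 0 ∧ T.e w ζ ≠ 0 ∧ T.e (y + w) ζ ≠ 0 := by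
    intro c hc ha hb
    have hp := pp_add_adj h2 hB h1 (pp_smul h2 hB h4 hc) (by
      rw [map_smul, LinearMap.smul_apply, smul_eq_mul]
      exact mul_ne_zero hc h41)
    refine ⟨_, _, hp, ?_, ?_, ?_⟩
    · rw [map_add, map_smul, hy4, smul_zero, add_zero]; exact hy1
    · rw [map_add, map_smul, smul_eq_mul]; exact ha
    · simp only [map_add, LinearMap.add_apply, map_smul, hy4, smul_zero, add_zero, zero_add,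
        smul_eq_mul, ← add_assoc]
      exact hb
  by_cases h0 : T.e y ζ₁ + T.e w ζ₁ = 0
  · by_cases h5 : T.e w ζ₁ + 1 * T.e w ζ₄ = 0
    · refine key (-1) (by simp) ?_ ?_
      · intro h6
        apply hw4
        have h7 : (2 : F) * T.e w ζ₄ = 0 := by linear_combination h5 - h6
        exact (mul_eq_zero.1 h7).resolve_left h2
      · rw [h0, zero_add]; simpa using hw4
    · refine key 1 one_ne_zero h5 ?_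
      rw [h0, zero_add]; simpa using hw4
  · refine ⟨z₁, ζ₁, h1, hy1, hw1, ?_⟩
    rw [map_add, LinearMap.add_apply]
    exact h0

/-- the half case `e y ζ₄ = 0` of `exists_z` -/
theorem exists_z_half (h2 : (2 : F) ≠ 0) (hB : T.TB u₀ f₀) {y w z₁ z₄ : V} {ψ χ ζ₁ ζ₄ : V'}
    (h : T.PP u₀ f₀ y ψ) (h' : T.PP u₀ f₀ w χ) (hperp : T.e w ψ = 0)
    (h1 : T.PP u₀ f₀ z₁ ζ₁) (hy1 : T.e y ζ₁ ≠ 0) (hw1 : T.e w ζ₁ ≠ 0)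
    (h4 : T.PP u₀ f₀ z₄ ζ₄) (hy4 : T.e y ζ₄ = 0) (hw4 : T.e w ζ₄ ≠ 0) :
    ∃ z ζ, T.PP u₀ f₀ z ζ ∧ T.e y ζ ≠ 0 ∧ T.e w ζ ≠ 0 ∧ T.e (y + w) ζ ≠ 0 := by
  by_cases h41 : T.e z₄ ζ₁ = 0
  · have hp := pp_add_adj h2 hB h1 h' hw1
    have e1 : T.e y χ = 0 := by rw [pp_skew hB h' h, hperp, neg_zero]
    have e2 : T.e w χ = 0 := T.S_perp _ _ (pp_iff.1 h').2.1
    have e3 : T.e z₄ χ = - T.e w ζ₄ := pp_skew hB h' h4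
    refine C8b_aux h2 hB hp ?_ ?_ h4 hy4 hw4 ?_
    · rw [map_add, e1, add_zero]; exact hy1
    · rw [map_add, e2, add_zero]; exact hw1
    · rw [map_add, h41, zero_add, e3]; exact neg_ne_zero.2 hw4
  · exact C8b_aux h2 hB h1 hy1 hw1 h4 hy4 hw4 h41

end Cfsg.Agent.Lib.H57McL.TSys
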