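import Cfsg.Agent.Lib.H57McLDefs
import Cfsg.Agent.Lib.H57McLC8b

set_option autoImplicit false
set_option linter.unusedSectionVars false

namespace Cfsg.Agent.Lib.H57McL.TSys

variable {F V V' G : Type*} [Field F] [AddCommGroup V] [Module F V]
  [AddCommGroup V'] [Module F V'] [Group G] [Finite V] [Finite V'] (T : TSys F V V' G)

variable {T} {u₀ : V} {f₀ : V'}

theorem exists_z (h2 : (2 : F) ≠ 0) (hN : T.NProp) (hB : T.TB u₀ f₀) {y w : V} {ψ χ : V'}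
    (h : T.PP u₀ f₀ y ψ) (h' : T.PP u₀ f₀ w χ) (hperp : T.e w ψ = 0) (hne : y + w ≠ 0) :
    ∃ z ζ, T.PP u₀ f₀ z ζ ∧ T.e y ζ ≠ 0 ∧ T.e w ζ ≠ 0 ∧ T.e (y + w) ζ ≠ 0 := by
  obtain ⟨z₁, ζ₁, h1, hy1, hw1⟩ := pp_common h2 hB h h'
  obtain ⟨z₄, ζ₄, h4, hs4⟩ := rad_free h2 hN hB h h' hperp hne
  by_cases hy4 : T.e y ζ₄ = 0
  · have hw4 : T.e w ζ₄ ≠ 0 := by
      intro h0
      apply hs4
      rw [map_add, LinearMap.add_apply, hy4, h0, add_zero]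
    exact exists_z_half h2 hB h h' hperp h1 hy1 hw1 h4 hy4 hw4
  · by_cases hw4 : T.e w ζ₄ = 0
    · have hperp' : T.e y χ = 0 := by rw [pp_skew hB h' h, hperp, neg_zero]
      obtain ⟨z, ζ, hz, a1, a2, a3⟩ := exists_z_half h2 hB h' h hperp' h1 hw1 hy1 h4 hw4 hy4
      exact ⟨z, ζ, hz, a2, a1, by rwa [add_comm]⟩
    · exact ⟨z₄, ζ₄, h4, hy4, hw4, hs4⟩

end Cfsg.Agent.Lib.H57McL.TSys
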