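import Cfsg.Agent.Lib.H57McLDefs
import Cfsg.Agent.Lib.H57McLC9

set_option autoImplicit false
set_option linter.unusedSectionVars false

namespace Cfsg.Agent.Lib.H57McL.TSys

variable {F V V' G : Type*} [Field F] [AddCommGroup V] [Module F V]
  [AddCommGroup V'] [Module F V'] [Group G] [Finite V] [Finite V'] (T : TSys F V V' G)

variable {T} {u₀ : V} {f₀ : V'}

theorem pp_add (h2 : (2 : F) ≠ 0) (hN : T.NProp) (hB : T.TB u₀ f₀) {y w : V} {ψ χ : V'}
    (h : T.PP u₀ f₀ y ψ) (h' : T.PP u₀ f₀ w χ) (hne : y + w ≠ 0) :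
    T.PP u₀ f₀ (y + w) (ψ + χ) := by
  by_cases hperp : T.e w ψ = 0
  · obtain ⟨z, ζ, hz, a1, a2, a3⟩ := exists_z h2 hN hB h h' hperp hne
    have e1 : T.e z ψ = - T.e y ζ := pp_skew hB h hz
    have e2 : T.e z χ = - T.e w ζ := pp_skew hB h' hz
    have e3 : T.e z ζ = 0 := T.S_perp _ _ (pp_iff.1 hz).2.1
    have p1 := pp_add_adj h2 hB h hz (by rw [e1]; exact neg_ne_zero.2 a1)
    have hz' := pp_smul h2 hB hz (c := -1) (by simp)
    have p2 := pp_add_adj h2 hB h' hz' (by
      rw [map_smul, LinearMap.smul_apply, e2]; simpa using a2)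
    have p3 := pp_add_adj h2 hB p1 p2 (by
      simp only [map_add, LinearMap.add_apply, map_smul, LinearMap.smul_apply, hperp, e1, e3]
      rw [map_add, LinearMap.add_apply] at a3
      intro h0
      apply a3
      simp only [smul_eq_mul] at h0
      linear_combination h0)
    have q1 : y + z + (w + (-1 : F) • z) = y + w := by
      rw [neg_one_smul]; abel
    have q2 : ψ + ζ + (χ + (-1 : F) • ζ) = ψ + χ := by
      rw [neg_one_smul]; abel
    rwa [q1, q2] at p3
  · exact pp_add_adj h2 hB h h' hperp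

end Cfsg.Agent.Lib.H57McL.TSys
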