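import Cfsg.Agent.Lib.H57McLDefs
import Cfsg.Agent.Lib.H57McLC9b

set_option autoImplicit false
set_option linter.unusedSectionVars false

namespace Cfsg.Agent.Lib.H57McL.TSys

variable {F V V' G : Type*} [Field F] [AddCommGroup V] [Module F V]
  [AddCommGroup V'] [Module F V'] [Group G] [Finite V] [Finite V'] (T : TSys F V V' G)

theorem mem_W_iff_of_add {u₀ : V} (hu : T.IsCentre u₀)
    (hadd : ∀ x y, T.Orb u₀ x → T.Orb u₀ y → x + y ≠ 0 → T.Orb u₀ (x + y)) {x : V} :
    x ∈ T.W u₀ ↔ x = 0 ∨ T.Orb u₀ x := by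
  constructor
  · intro hx
    rw [W_def] at hx
    induction hx using Submodule.span_induction with
    | mem x hx => exact Or.inr hx
    | zero => exact Or.inl rfl
    | add a b _ _ ha hb =>
      rcases ha with rfl | ha
      · rw [zero_add]; exact hb
      · rcases hb with rfl | hb
        · rw [add_zero]; exact Or.inr ha
        · by_cases hab : a + b = 0
          · exact Or.inl hab
          · exact Or.inr (hadd a b ha hb hab)
    | smul c a _ ha =>
      rcases ha with rfl | ha
      · left; simp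
      · by_cases hc : c = 0
        · left; simp [hc]
        · exact Or.inr (T.orb_trans ha (T.smul_orb (T.isCentre_orb ha hu) hc))
  · rintro (rfl | hx)
    · exact Submodule.zero_mem _
    · rw [W_def]; exact Submodule.subset_span hx

theorem mem_Phi_iff_of_add {u₀ : V}
    (hadd : ∀ x y φ ψ, T.Orb u₀ x → T.Orb u₀ y → T.S x φ → T.S y ψ →
      ∃ z, T.Orb u₀ z ∧ T.S z (φ + ψ)) {φ : V'} :
    φ ∈ T.Phi u₀ ↔ ∃ x, T.Orb u₀ x ∧ T.S x φ := by
  constructor
  · intro hφ
    rw [Phi_def] at hφ
    induction hφ using Submodule.span_induction with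
    | mem φ hφ => exact hφ
    | zero => exact ⟨u₀, T.orb_refl u₀, T.S_zero_right u₀⟩
    | add a b _ _ ha hb =>
      obtain ⟨x, hx, hxa⟩ := ha
      obtain ⟨y, hy, hyb⟩ := hb
      exact hadd x y a b hx hy hxa hyb
    | smul c a _ ha =>
      obtain ⟨x, hx, hxa⟩ := ha
      exact ⟨x, hx, T.S_smul_right c x a hxa⟩
  · intro hφ
    rw [Phi_def]; exact Submodule.subset_span hφ

end Cfsg.Agent.Lib.H57McL.TSys
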