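import Cfsg.Agent.Lib.H57McLDefs
import Cfsg.Agent.Lib.H57McLD1

set_option autoImplicit false
set_option linter.unusedSectionVars false

namespace Cfsg.Agent.Lib.H57McL.TSys

variable {F V V' G : Type*} [Field F] [AddCommGroup V] [Module F V]
  [AddCommGroup V'] [Module F V'] [Group G] [Finite V] [Finite V'] (T : TSys F V V' G)

variable {T} {u₀ : V} {f₀ : V'}

theorem orb_add_thin (h2 : (2 : F) ≠ 0) (hN : T.NProp) (hB : T.TB u₀ f₀) {x y : V}
    (hx : T.Orb u₀ x) (hy : T.Orb u₀ y) (hxy : x + y ≠ 0) : T.Orb u₀ (x + y) := by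
  obtain ⟨φ, hφ⟩ := pp_exists h2 hB hx
  obtain ⟨ψ, hψ⟩ := pp_exists h2 hB hy
  exact (pp_iff.mp (pp_add h2 hN hB hφ hψ hxy)).1

end Cfsg.Agent.Lib.H57McL.TSys
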