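import Cfsg.Agent.Lib.H57McLDefs
import Cfsg.Agent.Lib.H57McLC10

set_option autoImplicit false
set_option linter.unusedSectionVars false

namespace Cfsg.Agent.Lib.H57McL.TSys

variable {F V V' G : Type*} [Field F] [AddCommGroup V] [Module F V]
  [AddCommGroup V'] [Module F V'] [Group G] [Finite V] [Finite V'] (T : TSys F V V' G)

variable {T} {u₀ : V} {f₀ : V'}

/-- the graph relation. -/
private def C10b_R (T : TSys F V V' G) (u₀ : V) (f₀ : V') (x : V) (ψ : V') : Prop :=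
  (x = 0 ∧ ψ = 0) ∨ T.PP u₀ f₀ x ψ

private theorem C10b_ne (hB : T.TB u₀ f₀) {x : V} {ψ : V'} (h : T.PP u₀ f₀ x ψ) : x ≠ 0 :=
  hB.ne_of_orb (pp_iff.mp h).1

private theorem C10b_unique (h2 : (2 : F) ≠ 0) (hB : T.TB u₀ f₀) {x : V} {ψ ψ' : V'}
    (h : C10b_R T u₀ f₀ x ψ) (h' : C10b_R T u₀ f₀ x ψ') : ψ = ψ' := by
  rcases h with ⟨hx, rfl⟩ | h
  · rcases h' with ⟨_, rfl⟩ | h'
    · rfl
    · exact absurd hx (C10b_ne hB h')
  · rcases h' with ⟨hx, _⟩ | h'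
    · exact absurd hx (C10b_ne hB h)
    · exact pp_unique h2 hB h h'

private theorem C10b_exists (h2 : (2 : F) ≠ 0) (hN : T.NProp) (hB : T.TB u₀ f₀) {x : V}
    (hx : x ∈ T.W u₀) : ∃ ψ, C10b_R T u₀ f₀ x ψ := by
  rcases (T.mem_W_iff_of_add hB.isCentre
    (fun x y hx hy hxy => orb_add_thin h2 hN hB hx hy hxy)).mp hx with rfl | hO
  · exact ⟨0, Or.inl ⟨rfl, rfl⟩⟩
  · obtain ⟨ψ, hψ⟩ := pp_exists h2 hB hO
    exact ⟨ψ, Or.inr hψ⟩

private theorem C10b_add (h2 : (2 : F) ≠ 0) (hN : T.NProp) (hB : T.TB u₀ f₀) {x y : V}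
    {ψ χ : V'} (h : C10b_R T u₀ f₀ x ψ) (h' : C10b_R T u₀ f₀ y χ) :
    C10b_R T u₀ f₀ (x + y) (ψ + χ) := by
  rcases h with ⟨rfl, rfl⟩ | h
  · rw [zero_add, zero_add]; exact h'
  · rcases h' with ⟨rfl, rfl⟩ | h'
    · rw [add_zero, add_zero]; exact Or.inr h
    · by_cases hxy : x + y = 0
      · left
        refine ⟨hxy, ?_⟩
        have h3 : T.PP u₀ f₀ ((-1 : F) • x) ((-1 : F) • ψ) :=
          pp_smul h2 hB h (neg_ne_zero.mpr one_ne_zero)
        have hy : y = (-1 : F) • x := by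
          rw [neg_smul, one_smul]; exact eq_neg_of_add_eq_zero_right hxy
        rw [← hy] at h3
        rw [pp_unique h2 hB h' h3, neg_smul, one_smul, add_neg_cancel]
      · exact Or.inr (pp_add h2 hN hB h h' hxy)

private theorem C10b_smul (h2 : (2 : F) ≠ 0) (hB : T.TB u₀ f₀) {x : V}
    {ψ : V'} (h : C10b_R T u₀ f₀ x ψ) (c : F) : C10b_R T u₀ f₀ (c • x) (c • ψ) := by
  rcases h with ⟨rfl, rfl⟩ | h
  · left; simp
  · by_cases hc : c = 0
    · left; simp [hc]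
    · exact Or.inr (pp_smul h2 hB h hc)

/-- the compatible pairs are the graph of a linear map -/
theorem thin_linear (h2 : (2 : F) ≠ 0) (hN : T.NProp) (hB : T.TB u₀ f₀) :
    ∃ f : ↥(T.W u₀) →ₗ[F] V', (∀ x : ↥(T.W u₀), T.S (x : V) (f x)) ∧
      (∀ x : ↥(T.W u₀), x ≠ 0 → f x ≠ 0) ∧
      (∀ x y : ↥(T.W u₀), T.e (y : V) (f x) = - T.e (x : V) (f y)) := by
  classical
  choose f0 hf0 using fun x : ↥(T.W u₀) => C10b_exists h2 hN hB x.2
  let f : ↥(T.W u₀) →ₗ[F] V' :=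
    { toFun := f0
      map_add' := fun x y => C10b_unique h2 hB (hf0 (x + y)) (C10b_add h2 hN hB (hf0 x) (hf0 y))
      map_smul' := fun c x => C10b_unique h2 hB (hf0 (c • x)) (C10b_smul h2 hB (hf0 x) c) }
  have hf : ∀ x : ↥(T.W u₀), C10b_R T u₀ f₀ (x : V) (f x) := hf0
  refine ⟨f, ?_, ?_, ?_⟩
  · intro x
    rcases hf x with ⟨hx, _⟩ | h
    · rw [hx]; exact T.S_zero_left _
    · exact (pp_iff.mp h).2.1
  · intro x hx
    rcases hf x with ⟨hx0, _⟩ | h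
    · exact absurd (Subtype.ext hx0) hx
    · exact pp_ne hB h
  · intro x y
    rcases hf x with ⟨hx, hfx⟩ | h
    · rw [hx, hfx]; simp
    · rcases hf y with ⟨hy, hfy⟩ | h'
      · rw [hy, hfy]; simp
      · exact pp_skew hB h h'

end Cfsg.Agent.Lib.H57McL.TSys
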