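import Cfsg.Agent.Lib.H57McLDefs
import Cfsg.Agent.Lib.H57McLC10b

set_option autoImplicit false
set_option linter.unusedSectionVars false

namespace Cfsg.Agent.Lib.H57McL.TSys

variable {F V V' G : Type*} [Field F] [AddCommGroup V] [Module F V]
  [AddCommGroup V'] [Module F V'] [Group G] [Finite V] [Finite V'] (T : TSys F V V' G)

variable {T} {u₀ : V} {f₀ : V'}

theorem axis_add_thin (h2 : (2 : F) ≠ 0) (hN : T.NProp) (hB : T.TB u₀ f₀) {x y : V} {φ ψ : V'}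
    (hx : T.Orb u₀ x) (hy : T.Orb u₀ y) (hφ : T.S x φ) (hψ : T.S y ψ) :
    ∃ z, T.Orb u₀ z ∧ T.S z (φ + ψ) := by
  obtain ⟨φ₀, hφ₀⟩ := pp_exists h2 hB hx
  obtain ⟨ψ₀, hψ₀⟩ := pp_exists h2 hB hy
  obtain ⟨c, hc⟩ := (thin_iff.mp (hB.thin_of_orb hx)) φ₀ φ (pp_iff.mp hφ₀).2.1 hφ (pp_ne hB hφ₀)
  obtain ⟨c', hc'⟩ := (thin_iff.mp (hB.thin_of_orb hy)) ψ₀ ψ (pp_iff.mp hψ₀).2.1 hψ (pp_ne hB hψ₀)
  by_cases h0 : c = 0
  · refine ⟨y, hy, ?_⟩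
    rw [hc, h0, zero_smul, zero_add]; exact hψ
  by_cases h0' : c' = 0
  · refine ⟨x, hx, ?_⟩
    rw [hc', h0', zero_smul, add_zero]; exact hφ
  have h1 : T.PP u₀ f₀ (c • x) φ := by rw [hc]; exact pp_smul h2 hB hφ₀ h0
  have h1' : T.PP u₀ f₀ (c' • y) ψ := by rw [hc']; exact pp_smul h2 hB hψ₀ h0'
  by_cases hsum : c • x + c' • y = 0
  · refine ⟨u₀, T.orb_refl u₀, ?_⟩
    have h3 : T.PP u₀ f₀ ((-1 : F) • (c • x)) ((-1 : F) • φ) :=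
      pp_smul h2 hB h1 (neg_ne_zero.mpr one_ne_zero)
    have hy' : c' • y = (-1 : F) • (c • x) := by
      rw [neg_smul, one_smul]; exact eq_neg_of_add_eq_zero_right hsum
    rw [← hy'] at h3
    rw [pp_unique h2 hB h1' h3, neg_smul, one_smul, add_neg_cancel]
    exact T.S_zero_right u₀
  · have h4 := pp_add h2 hN hB h1 h1' hsum
    exact ⟨_, (pp_iff.mp h4).1, (pp_iff.mp h4).2.1⟩

end Cfsg.Agent.Lib.H57McL.TSys
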