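import Cfsg.Agent.Lib.H57McLDefs
import Cfsg.Agent.Lib.H57McLC11

set_option autoImplicit false
set_option linter.unusedSectionVars false

namespace Cfsg.Agent.Lib.H57McL.TSys

variable {F V V' G : Type*} [Field F] [AddCommGroup V] [Module F V]
  [AddCommGroup V'] [Module F V'] [Group G] [Finite V] [Finite V'] (T : TSys F V V' G)

theorem orb_add (h2 : (2 : F) ≠ 0) (hN : T.NProp) {u₀ x y : V} (hu : T.IsCentre u₀)
    (hx : T.Orb u₀ x) (hy : T.Orb u₀ y) (hxy : x + y ≠ 0) : T.Orb u₀ (x + y) := by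
  by_cases ht : T.Thin u₀
  · obtain ⟨hne, f₀, hf, hS⟩ := isCentre_iff.mp hu
    exact orb_add_thin h2 hN (⟨hne, hS, hf, ht⟩ : T.TB u₀ f₀) hx hy hxy
  · exact T.orb_add_nonthin hu ht hx hy hxy

theorem axis_add (h2 : (2 : F) ≠ 0) (hN : T.NProp) {u₀ x y : V} {φ ψ : V'} (hu : T.IsCentre u₀)
    (hx : T.Orb u₀ x) (hy : T.Orb u₀ y) (hφ : T.S x φ) (hψ : T.S y ψ) :
    ∃ z, T.Orb u₀ z ∧ T.S z (φ + ψ) := by
  by_cases ht : T.Thin u₀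
  · obtain ⟨hne, f₀, hf, hS⟩ := isCentre_iff.mp hu
    exact axis_add_thin h2 hN (⟨hne, hS, hf, ht⟩ : T.TB u₀ f₀) hx hy hφ hψ
  · exact T.axis_add_nonthin hu ht hx hy hφ hψ

theorem mem_W_iff (h2 : (2 : F) ≠ 0) (hN : T.NProp) {u₀ : V} (hu : T.IsCentre u₀) {x : V} :
    x ∈ T.W u₀ ↔ x = 0 ∨ T.Orb u₀ x :=
  T.mem_W_iff_of_add hu (fun _ _ hx hy hxy => T.orb_add h2 hN hu hx hy hxy)

theorem mem_Phi_iff (h2 : (2 : F) ≠ 0) (hN : T.NProp) {u₀ : V} (hu : T.IsCentre u₀) {φ : V'} :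
    φ ∈ T.Phi u₀ ↔ ∃ x, T.Orb u₀ x ∧ T.S x φ :=
  T.mem_Phi_iff_of_add (fun _ _ _ _ hx hy hφ hψ => T.axis_add h2 hN hu hx hy hφ hψ)

end Cfsg.Agent.Lib.H57McL.TSys
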