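import Cfsg.Agent.Lib.H57McLDefs
import Cfsg.Agent.Lib.H57McLD2

set_option autoImplicit false
set_option linter.unusedSectionVars false

namespace Cfsg.Agent.Lib.H57McL.TSys

variable {F V V' G : Type*} [Field F] [AddCommGroup V] [Module F V]
  [AddCommGroup V'] [Module F V'] [Group G] [Finite V] [Finite V'] (T : TSys F V V' G)

/-- different orbits are perpendicular -/
theorem Phi_W_perp (h2 : (2 : F) ≠ 0) (hN : T.NProp) {u₀ u₁ : V} (hu₀ : T.IsCentre u₀)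
    (hu₁ : T.IsCentre u₁) (hne : ¬ T.Orb u₀ u₁) {φ : V'} (hφ : φ ∈ T.Phi u₀) {x : V}
    (hx : x ∈ T.W u₁) : T.e x φ = 0 := by
  obtain ⟨z, hz, hzS⟩ := (T.mem_Phi_iff h2 hN hu₀).1 hφ
  rcases (T.mem_W_iff h2 hN hu₁).1 hx with rfl | hx'
  · simp
  · by_contra hcon
    have hadj : T.Adj z x := adj_iff.2 ⟨T.orb_ne hz (isCentre_iff.1 hu₀).1, φ, hzS, hcon⟩
    have hzx : T.Orb z x := T.orb_of_adj hadj (T.isCentre_orb hx' hu₁)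
    exact hne (T.orb_trans hz (T.orb_trans hzx (T.orb_symm hx')))

theorem W_nondeg (h2 : (2 : F) ≠ 0) (hN : T.NProp) {u₀ : V} (hu₀ : T.IsCentre u₀) {x : V}
    (hx : x ∈ T.W u₀) (h : ∀ φ ∈ T.Phi u₀, T.e x φ = 0) : x = 0 := by
  rcases (T.mem_W_iff h2 hN hu₀).1 hx with h0 | hx'
  · exact h0
  · exfalso
    obtain ⟨hx0, φ, hφ0, hφS⟩ := isCentre_iff.1 (T.isCentre_orb hx' hu₀)
    obtain ⟨g, hg⟩ := T.K x φ hφS hx0 hφ0
    rw [T.e_inv'] at hg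
    apply hg
    apply h
    exact (T.mem_Phi_iff h2 hN hu₀).2
      ⟨T.a g⁻¹ x, T.orb_trans hx' (T.orb_map g⁻¹ x), T.S_inv g⁻¹ x φ hφS⟩

theorem Phi_nondeg (h2 : (2 : F) ≠ 0) (hN : T.NProp) {u₀ : V} (hu₀ : T.IsCentre u₀) {φ : V'}
    (hφ : φ ∈ T.Phi u₀) (h : ∀ x ∈ T.W u₀, T.e x φ = 0) : φ = 0 := by
  obtain ⟨z, hz, hzS⟩ := (T.mem_Phi_iff h2 hN hu₀).1 hφ
  by_contra hφ0
  obtain ⟨g, hg⟩ := T.K z φ hzS (T.orb_ne hz (isCentre_iff.1 hu₀).1) hφ0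
  apply hg
  apply h
  exact (T.mem_W_iff h2 hN hu₀).2 (Or.inr (T.orb_trans hz (T.orb_map g z)))

end Cfsg.Agent.Lib.H57McL.TSys
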