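import Cfsg.Agent.Lib.H57McLDefs
import Cfsg.Agent.Lib.H57McLD3

set_option autoImplicit false
set_option linter.unusedSectionVars false

namespace Cfsg.Agent.Lib.H57McL.TSys

variable {F V V' G : Type*} [Field F] [AddCommGroup V] [Module F V]
  [AddCommGroup V'] [Module F V'] [Group G] [Finite V] [Finite V'] (T : TSys F V V' G)

/-- representatives of the orbits of centres -/
theorem exists_reps : ∃ (n : ℕ) (r : Fin n → V), (∀ j, T.IsCentre (r j)) ∧
    (∀ i j, T.Orb (r i) (r j) → i = j) ∧ (∀ u, T.IsCentre u → ∃ j, T.Orb (r j) u) := by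
  classical
  let s : Setoid {u : V // T.IsCentre u} :=
    { r := fun a b => T.Orb a.1 b.1
      iseqv := ⟨fun a => T.orb_refl _, fun h => T.orb_symm h, fun h h' => T.orb_trans h h'⟩ }
  haveI : Finite (Quotient s) := inferInstance
  obtain ⟨n, ⟨e⟩⟩ := Finite.exists_equiv_fin (Quotient s)
  refine ⟨n, fun j => ((e.symm j).out).1, fun j => ((e.symm j).out).2, ?_, ?_⟩
  · intro i j h
    have h1 : (e.symm i).out ≈ (e.symm j).out := h
    have h2 := Quotient.sound h1
    rw [Quotient.out_eq, Quotient.out_eq] at h2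
    exact e.symm.injective h2
  · intro u hu
    refine ⟨e (Quotient.mk s ⟨u, hu⟩), ?_⟩
    have h1 : (Quotient.mk s ⟨u, hu⟩).out ≈ ⟨u, hu⟩ := Quotient.mk_out _
    simp only [Equiv.symm_apply_apply]
    exact h1

end Cfsg.Agent.Lib.H57McL.TSys
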