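import Mathlib

/-!
# Vocabulary for project 57 (S5075, McLaughlin's theorem over the prime field, `p` odd)

A *transvection system* is the self-dual abstract form of
"a group `G` of linear maps generated by transvections, with `O_p(G) = 1`":
`S u φ` says that the transvection `x ↦ x + φ(x) u` belongs to `G`.
-/

set_option autoImplicit false

namespace Cfsg.Agent.Lib.H57McL

/-- A (self-dual) transvection system. `e u φ` is the value `φ(u)`. -/
structure TSys (F V V' G : Type*) [Field F] [AddCommGroup V] [Module F V]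
    [AddCommGroup V'] [Module F V'] [Group G] where
  e : V →ₗ[F] V' →ₗ[F] F
  a : G →* (V ≃ₗ[F] V)
  a' : G →* (V' ≃ₗ[F] V')
  S : V → V' → Prop
  e_inv : ∀ g u φ, e (a g u) (a' g φ) = e u φ
  S_inv : ∀ g u φ, S u φ → S (a g u) (a' g φ)
  S_perp : ∀ u φ, S u φ → e u φ = 0
  S_zero_left : ∀ φ, S 0 φ
  S_zero_right : ∀ u, S u 0
  S_add_left : ∀ u u' φ, S u φ → S u' φ → S (u + u') φ
  S_add_right : ∀ u φ φ', S u φ → S u φ' → S u (φ + φ')
  S_smul_left : ∀ (c : F) u φ, S u φ → S (c • u) φ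
  S_smul_right : ∀ (c : F) u φ, S u φ → S u (c • φ)
  tv : ∀ v ψ, S v ψ → ∃ g, (∀ x, a g x = x + e x ψ • v) ∧ (∀ φ, a' g φ = φ - e v φ • ψ)
  gen : ∀ P : G → Prop, P 1 →
    (∀ h g, (∃ v ψ, S v ψ ∧ (∀ x, a h x = x + e x ψ • v) ∧ (∀ φ, a' h φ = φ - e v φ • ψ)) →
      P g → P (h * g)) → ∀ g, P g
  K : ∀ u φ, S u φ → u ≠ 0 → φ ≠ 0 → ∃ g, e (a g u) φ ≠ 0

namespace TSys

variable {F V V' G : Type*} [Field F] [AddCommGroup V] [Module F V]
  [AddCommGroup V'] [Module F V'] [Group G] (T : TSys F V V' G)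

theorem e_inv' (g : G) (u : V) (φ : V') : T.e (T.a g u) φ = T.e u (T.a' g⁻¹ φ) := by
  have h := T.e_inv g u (T.a' g⁻¹ φ)
  rw [← h]
  congr 1
  have : T.a' g (T.a' g⁻¹ φ) = (T.a' (g * g⁻¹)) φ := by rw [map_mul]; rfl
  rw [this]; simp

/-- The dual system: the roles of `V` and `V'` are exchanged. -/
def swap : TSys F V' V G where
  e := T.e.flip
  a := T.a'
  a' := T.a
  S := fun φ u => T.S u φ
  e_inv := fun g φ u => T.e_inv g u φ
  S_inv := fun g φ u h => T.S_inv g u φ h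
  S_perp := fun φ u h => T.S_perp u φ h
  S_zero_left := fun u => T.S_zero_right u
  S_zero_right := fun φ => T.S_zero_left φ
  S_add_left := fun φ φ' u h h' => T.S_add_right u φ φ' h h'
  S_add_right := fun φ u u' h h' => T.S_add_left u u' φ h h'
  S_smul_left := fun c φ u h => T.S_smul_right c u φ h
  S_smul_right := fun c φ u h => T.S_smul_left c u φ h
  tv := by
    intro ψ v h
    obtain ⟨g, h1, h2⟩ := T.tv (-v) ψ (by simpa using T.S_smul_left (-1) v ψ h)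
    refine ⟨g, fun φ => ?_, fun x => ?_⟩
    · rw [h2]; simp
    · rw [h1]; simp [sub_eq_add_neg]
  gen := by
    intro P h1 hstep g
    refine T.gen P h1 ?_ g
    rintro h g ⟨v, ψ, hS, ha, ha'⟩ hg
    refine hstep h g ⟨ψ, -v, by simpa using T.S_smul_left (-1) v ψ hS, fun φ => ?_, fun x => ?_⟩ hg
    · rw [ha']; simp [sub_eq_add_neg]
    · rw [ha]; simp
  K := by
    intro φ u h hφ hu
    obtain ⟨g, hg⟩ := T.K u φ h hu hφ
    refine ⟨g⁻¹, ?_⟩
    rw [T.e_inv'] at hg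
    exact hg

@[simp] theorem swap_S (φ : V') (u : V) : T.swap.S φ u ↔ T.S u φ := Iff.rfl
@[simp] theorem swap_e (φ : V') (u : V) : T.swap.e φ u = T.e u φ := rfl
@[simp] theorem swap_a (g : G) : T.swap.a g = T.a' g := rfl
@[simp] theorem swap_a' (g : G) : T.swap.a' g = T.a g := rfl

/-- `u` is a centre: a nonzero vector carrying a nontrivial transvection of the system. -/
def IsCentre (u : V) : Prop := u ≠ 0 ∧ ∃ φ, φ ≠ 0 ∧ T.S u φ

/-- `u → v`: some transvection with centre `u` moves `v`. -/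
def Adj (u v : V) : Prop := u ≠ 0 ∧ ∃ φ, T.S u φ ∧ T.e v φ ≠ 0

/-- `v` is in the `G`-orbit of `u`. -/
def Orb (u v : V) : Prop := ∃ g, T.a g u = v

/-- the axes of the transvections with centre `u` form a space of dimension at most one -/
def Thin (u : V) : Prop := ∀ φ ψ, T.S u φ → T.S u ψ → φ ≠ 0 → ∃ c : F, ψ = c • φ

/-- span of the orbit of `u` -/
def W (u : V) : Submodule F V := Submodule.span F {x | T.Orb u x}

/-- span of the axes belonging to the orbit of `u` -/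
def Phi (u : V) : Submodule F V' := Submodule.span F {φ | ∃ x, T.Orb u x ∧ T.S x φ}

/-- The consequence (N) of `O_p(G) = 1`: an element acting trivially on the three factors of a
`G`-invariant chain `0 ≤ U₁ ≤ U₂ ≤ V` acts trivially. -/
def NProp : Prop :=
  ∀ U₁ U₂ : Submodule F V, U₁ ≤ U₂ → (∀ g, ∀ x ∈ U₁, T.a g x ∈ U₁) → (∀ g, ∀ x ∈ U₂, T.a g x ∈ U₂) →
    ∀ g, (∀ x, T.a g x - x ∈ U₂) → (∀ x ∈ U₂, T.a g x - x ∈ U₁) → (∀ x ∈ U₁, T.a g x = x) →
      ∀ x, T.a g x = x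

/-- (thin case) `(v, φ)` is normalised against the base pair `(u₀, f₀)`. -/
def Nrm (u₀ : V) (f₀ : V') (v : V) (φ : V') : Prop :=
  T.Orb u₀ v ∧ T.S v φ ∧ T.e v f₀ ≠ 0 ∧ T.e u₀ φ = - T.e v f₀

/-- (thin case) the compatible pairs: differences of normalised pairs. -/
def PP (u₀ : V) (f₀ : V') (y : V) (ψ : V') : Prop :=
  T.Orb u₀ y ∧ T.S y ψ ∧ ∃ v φ, T.Nrm u₀ f₀ v φ ∧ T.Nrm u₀ f₀ (v + y) (φ + ψ)

/-- (thin case) the standing hypotheses on the base pair -/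
structure TB (u₀ : V) (f₀ : V') : Prop where
  ne : u₀ ≠ 0
  hS : T.S u₀ f₀
  hf : f₀ ≠ 0
  thin : T.Thin u₀

variable {T}

theorem isCentre_iff {u : V} : T.IsCentre u ↔ u ≠ 0 ∧ ∃ φ, φ ≠ 0 ∧ T.S u φ := by
  unfold IsCentre; rfl
theorem adj_iff {u v : V} : T.Adj u v ↔ u ≠ 0 ∧ ∃ φ, T.S u φ ∧ T.e v φ ≠ 0 := by
  unfold Adj; rfl
theorem orb_iff {u v : V} : T.Orb u v ↔ ∃ g, T.a g u = v := by
  unfold Orb; rfl
theorem thin_iff {u : V} :
    T.Thin u ↔ ∀ φ ψ, T.S u φ → T.S u ψ → φ ≠ 0 → ∃ c : F, ψ = c • φ := by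
  unfold Thin; rfl
theorem W_def {u : V} : T.W u = Submodule.span F {x | T.Orb u x} := by
  unfold W; rfl
theorem Phi_def {u : V} : T.Phi u = Submodule.span F {φ | ∃ x, T.Orb u x ∧ T.S x φ} := by
  unfold Phi; rfl
theorem nProp_iff : T.NProp ↔
    ∀ U₁ U₂ : Submodule F V, U₁ ≤ U₂ → (∀ g, ∀ x ∈ U₁, T.a g x ∈ U₁) →
      (∀ g, ∀ x ∈ U₂, T.a g x ∈ U₂) →
      ∀ g, (∀ x, T.a g x - x ∈ U₂) → (∀ x ∈ U₂, T.a g x - x ∈ U₁) → (∀ x ∈ U₁, T.a g x = x) →
      ∀ x, T.a g x = x := by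
  unfold NProp; rfl
theorem nrm_iff {u₀ : V} {f₀ : V'} {v : V} {φ : V'} : T.Nrm u₀ f₀ v φ ↔
    T.Orb u₀ v ∧ T.S v φ ∧ T.e v f₀ ≠ 0 ∧ T.e u₀ φ = - T.e v f₀ := by
  unfold Nrm; rfl
theorem pp_iff {u₀ : V} {f₀ : V'} {y : V} {ψ : V'} : T.PP u₀ f₀ y ψ ↔
    T.Orb u₀ y ∧ T.S y ψ ∧ ∃ v φ, T.Nrm u₀ f₀ v φ ∧ T.Nrm u₀ f₀ (v + y) (φ + ψ) := by
  unfold PP; rfl

end TSys

/-- `SH H u φ`: the transvection `x ↦ x + φ(x) u` (with `φ u = 0`) belongs to `H`. -/
def SH {F V : Type*} [Field F] [AddCommGroup V] [Module F V]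
    (H : Subgroup (V ≃ₗ[F] V)) (u : V) (φ : Module.Dual F V) : Prop :=
  ∃ h : φ u = 0, LinearEquiv.transvection h ∈ H

theorem SH_iff {F V : Type*} [Field F] [AddCommGroup V] [Module F V]
    {H : Subgroup (V ≃ₗ[F] V)} {u : V} {φ : Module.Dual F V} :
    SH H u φ ↔ ∃ h : φ u = 0, LinearEquiv.transvection h ∈ H := by
  unfold SH; rfl

/-- The system `T` is the concrete one attached to the subgroup `H` of `GL(V)`. -/
structure Conc {F V : Type*} [Field F] [AddCommGroup V] [Module F V]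
    (H : Subgroup (V ≃ₗ[F] V)) (T : TSys F V (Module.Dual F V) ↥H) : Prop where
  e_eq : ∀ u φ, T.e u φ = φ u
  a_eq : ∀ (g : ↥H) x, T.a g x = (g : V ≃ₗ[F] V) x
  a'_eq : ∀ (g : ↥H) φ x, T.a' g φ x = φ ((g : V ≃ₗ[F] V).symm x)
  S_iff : ∀ u φ, T.S u φ ↔ ∃ h : φ u = 0, LinearEquiv.transvection h ∈ H

/-- The subgroup generated by the transvections of `H` whose centre lies in the orbit of `u₀`. -/
def Kgrp {F V : Type*} [Field F] [AddCommGroup V] [Module F V]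
    (H : Subgroup (V ≃ₗ[F] V)) (T : TSys F V (Module.Dual F V) ↥H) (u₀ : V) :
    Subgroup (V ≃ₗ[F] V) :=
  Subgroup.closure {t | ∃ (x : V) (φ : Module.Dual F V) (h : φ x = 0),
    T.Orb u₀ x ∧ LinearEquiv.transvection h ∈ H ∧ t = LinearEquiv.transvection h}

theorem Kgrp_def {F V : Type*} [Field F] [AddCommGroup V] [Module F V]
    (H : Subgroup (V ≃ₗ[F] V)) (T : TSys F V (Module.Dual F V) ↥H) (u₀ : V) :
    Kgrp H T u₀ = Subgroup.closure {t | ∃ (x : V) (φ : Module.Dual F V) (h : φ x = 0),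
      T.Orb u₀ x ∧ LinearEquiv.transvection h ∈ H ∧ t = LinearEquiv.transvection h} := by
  unfold Kgrp; rfl

end Cfsg.Agent.Lib.H57McL
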