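import Cfsg.Agent.Lib.H57McLDefs

set_option autoImplicit false
set_option linter.unusedSectionVars false

namespace Cfsg.Agent.Lib.H57McL

open Module

/-- an element of order `p` fixing a hyperplane pointwise is a transvection -/
theorem exists_tv_of_order {p : ℕ} [Fact p.Prime] {V : Type*} [AddCommGroup V]
    [Module (ZMod p) V] [Finite V] (t : V ≃ₗ[ZMod p] V) (ho : orderOf t = p)
    (hk : Module.finrank (ZMod p) ↥(LinearMap.ker ((t : V →ₗ[ZMod p] V) - LinearMap.id)) + 1 =
      Module.finrank (ZMod p) V) :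
    ∃ (u : V) (φ : Module.Dual (ZMod p) V) (h : φ u = 0),
      u ≠ 0 ∧ φ ≠ 0 ∧ t = LinearEquiv.transvection h := by
  have : Module.Finite (ZMod p) V := Module.Finite.of_finite
  set N : V →ₗ[ZMod p] V := (t : V →ₗ[ZMod p] V) - LinearMap.id with hN
  have hNx : ∀ x, t x = x + N x := by
    intro x
    simp [hN]
  have hr : finrank (ZMod p) (LinearMap.range N) = 1 := by
    have := LinearMap.finrank_range_add_finrank_ker N
    omega
  obtain ⟨⟨u, hu⟩, hu0, hspan⟩ := finrank_eq_one_iff'.1 hr
  have hu0' : u ≠ 0 := fun h => hu0 (Subtype.ext h)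
  obtain ⟨f, hfu, -⟩ := Submodule.exists_dual_map_eq_bot_of_notMem
    (p := (⊥ : Submodule (ZMod p) V)) (x := u) (by simpa using hu0') inferInstance
  let φ : Module.Dual (ZMod p) V := ((f u)⁻¹ • f).comp N
  have hφ : ∀ x, N x = φ x • u := by
    intro x
    obtain ⟨c, hc⟩ := hspan ⟨N x, LinearMap.mem_range_self N x⟩
    have hc' : c • u = N x := congrArg Subtype.val hc
    have : φ x = c := by
      show ((f u)⁻¹ • f) (N x) = c
      rw [← hc', map_smul, LinearMap.smul_apply, smul_eq_mul, smul_eq_mul, inv_mul_cancel₀ hfu,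
        mul_one]
    rw [this, hc']
  have htu : ∀ n : ℕ, (t ^ n) u = (1 + φ u) ^ n • u := by
    intro n
    induction n with
    | zero => simp
    | succ n ih =>
      rw [pow_succ', LinearEquiv.mul_apply, ih, map_smul, hNx, hφ, pow_succ, mul_smul, add_smul,
        one_smul]
  have hφu : φ u = 0 := by
    have h1 := htu p
    have htp : t ^ p = 1 := by
      have := pow_orderOf_eq_one t
      rwa [ho] at this
    rw [htp, ZMod.pow_card] at h1
    have h2 : φ u • u = 0 := by
      rw [add_smul, one_smul] at h1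
      have h3 : u = u + φ u • u := h1
      simpa using h3.symm
    exact (smul_eq_zero.1 h2).resolve_right hu0'
  refine ⟨u, φ, hφu, hu0', ?_, ?_⟩
  · intro h0
    obtain ⟨y, hy⟩ := hu
    apply hu0'
    rw [← hy, hφ, h0]
    simp
  · ext x
    rw [LinearEquiv.transvection.apply, hNx, hφ]

end Cfsg.Agent.Lib.H57McL
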