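import Cfsg.Agent.Lib.H57McLDefs
import Cfsg.Prelude.Def_Solvable

set_option autoImplicit false
set_option linter.unusedSectionVars false

namespace Cfsg.Agent.Lib.H57McL

open Module

/-- the stability group of the chain, inside `H` -/
private def E2_stab {p : ℕ} {V : Type*} [AddCommGroup V]
    [Module (ZMod p) V] (H : Subgroup (V ≃ₗ[ZMod p] V))
    (U₁ U₂ : Submodule (ZMod p) V) : Subgroup ↥H where
  carrier := {g | (∀ x, (g : V ≃ₗ[ZMod p] V) x - x ∈ U₂) ∧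
    (∀ x ∈ U₂, (g : V ≃ₗ[ZMod p] V) x - x ∈ U₁) ∧ ∀ x ∈ U₁, (g : V ≃ₗ[ZMod p] V) x = x}
  one_mem' := by
    refine ⟨fun x => by simp, fun x _ => by simp, fun x _ => by simp⟩
  mul_mem' := by
    rintro a b ⟨a1, a2, a3⟩ ⟨b1, b2, b3⟩
    refine ⟨fun x => ?_, fun x hx => ?_, fun x hx => ?_⟩
    · have : ((a * b : ↥H) : V ≃ₗ[ZMod p] V) x - x
          = ((a : V ≃ₗ[ZMod p] V) ((b : V ≃ₗ[ZMod p] V) x) - (b : V ≃ₗ[ZMod p] V) x)
            + ((b : V ≃ₗ[ZMod p] V) x - x) := by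
        simp [LinearEquiv.mul_apply]
      rw [this]
      exact U₂.add_mem (a1 _) (b1 _)
    · have : ((a * b : ↥H) : V ≃ₗ[ZMod p] V) x - x
          = ((a : V ≃ₗ[ZMod p] V) ((b : V ≃ₗ[ZMod p] V) x) - (b : V ≃ₗ[ZMod p] V) x)
            + ((b : V ≃ₗ[ZMod p] V) x - x) := by
        simp [LinearEquiv.mul_apply]
      rw [this]
      have hbx : (b : V ≃ₗ[ZMod p] V) x ∈ U₂ := by
        have := U₂.add_mem (b1 x) hx
        simpa using this
      exact U₁.add_mem (a2 _ hbx) (b2 _ hx)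
    · show (a : V ≃ₗ[ZMod p] V) ((b : V ≃ₗ[ZMod p] V) x) = x
      rw [b3 x hx, a3 x hx]
  inv_mem' := by
    rintro a ⟨a1, a2, a3⟩
    have key : ∀ x, ((a⁻¹ : ↥H) : V ≃ₗ[ZMod p] V) x - x
        = -((a : V ≃ₗ[ZMod p] V) (((a⁻¹ : ↥H) : V ≃ₗ[ZMod p] V) x)
          - ((a⁻¹ : ↥H) : V ≃ₗ[ZMod p] V) x) := by
      intro x
      have : (a : V ≃ₗ[ZMod p] V) (((a⁻¹ : ↥H) : V ≃ₗ[ZMod p] V) x) = x := by
        rw [← LinearEquiv.mul_apply, ← Subgroup.coe_mul, mul_inv_cancel]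
        rfl
      rw [this]
      abel
    refine ⟨fun x => ?_, fun x hx => ?_, fun x hx => ?_⟩
    · rw [key]
      exact U₂.neg_mem (a1 _)
    · rw [key]
      have hx' : ((a⁻¹ : ↥H) : V ≃ₗ[ZMod p] V) x ∈ U₂ := by
        have h1 : ((a⁻¹ : ↥H) : V ≃ₗ[ZMod p] V) x - x ∈ U₂ := by
          rw [key]
          exact U₂.neg_mem (a1 _)
        have := U₂.add_mem h1 hx
        simpa using this
      exact U₁.neg_mem (a2 _ hx')
    · have : ((a⁻¹ : ↥H) : V ≃ₗ[ZMod p] V) ((a : V ≃ₗ[ZMod p] V) x) = x := by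
        rw [← LinearEquiv.mul_apply, ← Subgroup.coe_mul, inv_mul_cancel]
        rfl
      rw [a3 x hx] at this
      exact this

/-- (N): `O_p(H) = 1` kills the elements acting trivially on the factors of an invariant chain -/
theorem N_of_pCore {p : ℕ} [Fact p.Prime] (hp : Odd p) {V : Type*} [AddCommGroup V]
    [Module (ZMod p) V] (H : Subgroup (V ≃ₗ[ZMod p] V)) (hOp : Cfsg.pCore p ↥H = ⊥)
    (U₁ U₂ : Submodule (ZMod p) V) (h1 : ∀ g ∈ H, ∀ x ∈ U₁, g x ∈ U₁)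
    (h2 : ∀ g ∈ H, ∀ x ∈ U₂, g x ∈ U₂) (g : V ≃ₗ[ZMod p] V) (hg : g ∈ H)
    (hV : ∀ x, g x - x ∈ U₂) (hU2 : ∀ x ∈ U₂, g x - x ∈ U₁) (hU1 : ∀ x ∈ U₁, g x = x) :
    g = 1 := by
  have hpp : p.Prime := Fact.out
  have hp3 : 3 ≤ p := by
    rcases hp with ⟨k, hk⟩
    have := hpp.two_le
    omega
  have hnormal : (E2_stab H U₁ U₂).Normal := by
    constructor
    rintro a ⟨a1, a2, a3⟩ b
    have key : ∀ x, ((b * a * b⁻¹ : ↥H) : V ≃ₗ[ZMod p] V) x - x
        = (b : V ≃ₗ[ZMod p] V) ((a : V ≃ₗ[ZMod p] V) (((b⁻¹ : ↥H) : V ≃ₗ[ZMod p] V) x)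
          - ((b⁻¹ : ↥H) : V ≃ₗ[ZMod p] V) x) := by
      intro x
      have : (b : V ≃ₗ[ZMod p] V) (((b⁻¹ : ↥H) : V ≃ₗ[ZMod p] V) x) = x := by
        rw [← LinearEquiv.mul_apply, ← Subgroup.coe_mul, mul_inv_cancel]
        rfl
      rw [map_sub, this]
      rfl
    refine ⟨fun x => ?_, fun x hx => ?_, fun x hx => ?_⟩
    · rw [key]
      exact h2 _ b.2 _ (a1 _)
    · rw [key]
      exact h1 _ b.2 _ (a2 _ (h2 _ (b⁻¹).2 _ hx))
    · have := key x
      rw [a3 _ (h1 _ (b⁻¹).2 _ hx), sub_self, map_zero, sub_eq_zero] at this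
      exact this
  have hpg : IsPGroup p (E2_stab H U₁ U₂) := by
    rintro ⟨a, a1, a2, a3⟩
    refine ⟨1, ?_⟩
    apply Subtype.ext
    apply Subtype.ext
    simp only [pow_one, SubmonoidClass.mk_pow, OneMemClass.coe_one, SubmonoidClass.coe_pow]
    set A : Module.End (ZMod p) V := ((a : V ≃ₗ[ZMod p] V) : V →ₗ[ZMod p] V) with hA
    have hN3 : (A - 1) ^ 3 = 0 := by
      ext x
      have e1 : (A - 1) x ∈ U₂ := a1 x
      have e2 : (A - 1) ((A - 1) x) ∈ U₁ := a2 _ e1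
      have e3 : (A - 1) ((A - 1) ((A - 1) x)) = 0 := by
        have := a3 _ e2
        show (a : V ≃ₗ[ZMod p] V) _ - _ = 0
        rw [sub_eq_zero]
        exact this
      simpa [pow_succ, Module.End.mul_apply] using e3
    have hNp : (A - 1) ^ p = 0 := pow_eq_zero_of_le hp3 hN3
    have hApoly : A ^ p = 1 := by
      open Polynomial in
      have h : ((X : (ZMod p)[X]) - 1) ^ p = (X : (ZMod p)[X]) ^ p - 1 := by
        rw [sub_pow_char, one_pow]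
      have := congrArg (Polynomial.aeval A) h
      simp only [map_pow, map_sub, Polynomial.aeval_X, map_one, hNp] at this
      exact (sub_eq_zero.1 this.symm)
    ext x
    have h3 : ∀ n : ℕ, (((a : V ≃ₗ[ZMod p] V) ^ n : V ≃ₗ[ZMod p] V)) x = (A ^ n) x := by
      intro n
      induction n generalizing x with
      | zero => simp
      | succ n ih =>
        rw [pow_succ, pow_succ, LinearEquiv.mul_apply, Module.End.mul_apply, ih]
        rfl
    rw [h3, hApoly]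
    rfl
  have hle : E2_stab H U₁ U₂ ≤ Cfsg.pCore p ↥H := le_sSup ⟨hnormal, hpg⟩
  rw [hOp] at hle
  have hmem : (⟨g, hg⟩ : ↥H) ∈ E2_stab H U₁ U₂ := ⟨hV, hU2, hU1⟩
  have := hle hmem
  rw [Subgroup.mem_bot] at this
  exact congrArg Subtype.val this

end Cfsg.Agent.Lib.H57McL
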