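import Cfsg.Agent.Lib.H57McLDefs

set_option autoImplicit false
set_option linter.unusedSectionVars false

namespace Cfsg.Agent.Lib.H57McL

open Module

variable {F V : Type*} [Field F] [AddCommGroup V] [Module F V] {H : Subgroup (V ≃ₗ[F] V)}

theorem SH_zero_left (φ : Dual F V) : SH H 0 φ := by
  refine SH_iff.2 ⟨map_zero φ, ?_⟩
  have : LinearEquiv.transvection (map_zero φ) = (1 : V ≃ₗ[F] V) := by
    ext x; simp
  rw [this]; exact H.one_mem

theorem SH_zero_right (u : V) : SH H u 0 := by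
  refine SH_iff.2 ⟨LinearMap.zero_apply u, ?_⟩
  have : LinearEquiv.transvection (LinearMap.zero_apply (R₂ := F) (M₂ := F) (σ₁₂ := RingHom.id F) u)
      = (1 : V ≃ₗ[F] V) := by
    ext x; simp
  rw [this]; exact H.one_mem

theorem SH_add_left {u u' : V} {φ : Dual F V} (h : SH H u φ) (h' : SH H u' φ) :
    SH H (u + u') φ := by
  obtain ⟨h0, hm⟩ := SH_iff.1 h
  obtain ⟨h0', hm'⟩ := SH_iff.1 h'
  have h1 : φ (u + u') = 0 := by rw [map_add, h0, h0', add_zero]
  refine SH_iff.2 ⟨h1, ?_⟩
  have : LinearEquiv.transvection h1 = LinearEquiv.transvection h0 * LinearEquiv.transvection h0' := by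
    ext x
    rw [LinearEquiv.mul_apply]
    simp only [LinearEquiv.transvection.apply, map_add, map_smul, h0', smul_zero, zero_smul,
      add_zero, smul_add]
    abel
  rw [this]; exact H.mul_mem hm hm'

theorem SH_add_right {u : V} {φ φ' : Dual F V} (h : SH H u φ) (h' : SH H u φ') :
    SH H u (φ + φ') := by
  obtain ⟨h0, hm⟩ := SH_iff.1 h
  obtain ⟨h0', hm'⟩ := SH_iff.1 h'
  have h1 : (φ + φ') u = 0 := by rw [LinearMap.add_apply, h0, h0', add_zero]
  refine SH_iff.2 ⟨h1, ?_⟩
  have : LinearEquiv.transvection h1 = LinearEquiv.transvection h0 * LinearEquiv.transvection h0' := by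
    ext x
    rw [LinearEquiv.mul_apply]
    simp only [LinearEquiv.transvection.apply, map_add, map_smul, h0, smul_zero, zero_smul,
      add_zero, LinearMap.add_apply, add_smul]
    abel
  rw [this]; exact H.mul_mem hm hm'

theorem SH_conj {u : V} {φ : Dual F V} (h : SH H u φ) {g : V ≃ₗ[F] V} (hg : g ∈ H) :
    SH H (g u) (φ ∘ₗ (g.symm : V →ₗ[F] V)) := by
  obtain ⟨h0, hm⟩ := SH_iff.1 h
  have h1 : (φ ∘ₗ (g.symm : V →ₗ[F] V)) (g u) = 0 := by simp [h0]
  refine SH_iff.2 ⟨h1, ?_⟩
  have : LinearEquiv.transvection h1 = g * LinearEquiv.transvection h0 * g⁻¹ := by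
    ext x
    rw [LinearEquiv.mul_apply, LinearEquiv.mul_apply]
    have hx : g⁻¹ x = g.symm x := rfl
    simp only [LinearEquiv.transvection.apply, map_add, map_smul, hx, LinearEquiv.apply_symm_apply,
      LinearMap.comp_apply, LinearEquiv.coe_coe]
  rw [this]; exact H.mul_mem (H.mul_mem hg hm) (H.inv_mem hg)

end Cfsg.Agent.Lib.H57McL
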