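import Cfsg.Agent.Lib.H57McLDefs
import Cfsg.Agent.Lib.H57McLE3

set_option autoImplicit false
set_option linter.unusedSectionVars false

namespace Cfsg.Agent.Lib.H57McL

open Module

theorem SH_smul_left {p : ℕ} [Fact p.Prime] {V : Type*} [AddCommGroup V] [Module (ZMod p) V]
    {H : Subgroup (V ≃ₗ[ZMod p] V)} (c : ZMod p) {u : V} {φ : Dual (ZMod p) V} (h : SH H u φ) :
    SH H (c • u) φ := by
  have key : ∀ n : ℕ, SH H ((n : ZMod p) • u) φ := by
    intro n
    induction n with
    | zero => simpa using SH_zero_left φ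
    | succ n ih =>
      rw [Nat.cast_succ, add_smul, one_smul]
      exact SH_add_left ih h
  have := key c.val
  rwa [ZMod.natCast_zmod_val] at this

theorem SH_smul_right {p : ℕ} [Fact p.Prime] {V : Type*} [AddCommGroup V] [Module (ZMod p) V]
    {H : Subgroup (V ≃ₗ[ZMod p] V)} (c : ZMod p) {u : V} {φ : Dual (ZMod p) V} (h : SH H u φ) :
    SH H u (c • φ) := by
  have key : ∀ n : ℕ, SH H u ((n : ZMod p) • φ) := by
    intro n
    induction n with
    | zero => simpa using SH_zero_right u
    | succ n ih =>
      rw [Nat.cast_succ, add_smul, one_smul]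
      exact SH_add_right ih h
  have := key c.val
  rwa [ZMod.natCast_zmod_val] at this

end Cfsg.Agent.Lib.H57McL
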