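import Cfsg.Agent.Lib.H57McLDefs
import Cfsg.Agent.Lib.H57McLE2

set_option autoImplicit false
set_option linter.unusedSectionVars false

namespace Cfsg.Agent.Lib.H57McL

open Module

/-- (K) -/
theorem SH_K {p : ℕ} [Fact p.Prime] (hp : Odd p) {V : Type*} [AddCommGroup V]
    [Module (ZMod p) V] (H : Subgroup (V ≃ₗ[ZMod p] V)) (hOp : Cfsg.pCore p ↥H = ⊥)
    {u : V} {φ : Dual (ZMod p) V} (h : SH H u φ) (hu : u ≠ 0) (hφ : φ ≠ 0) :
    ∃ g ∈ H, φ (g u) ≠ 0 := by
  by_contra hcon
  push Not at hcon
  obtain ⟨h0, hm⟩ := SH_iff.1 h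
  set U : Submodule (ZMod p) V := Submodule.span (ZMod p) {x | ∃ g ∈ H, g u = x} with hU
  have hinv : ∀ g ∈ H, ∀ x ∈ U, g x ∈ U := by
    intro g hg x hx
    induction hx using Submodule.span_induction with
    | mem x hx =>
      obtain ⟨g', hg', rfl⟩ := hx
      exact Submodule.subset_span ⟨g * g', H.mul_mem hg hg', rfl⟩
    | zero => rw [map_zero]; exact Submodule.zero_mem _
    | add x y _ _ hx hy => rw [map_add]; exact Submodule.add_mem _ hx hy
    | smul c x _ hx => rw [map_smul]; exact Submodule.smul_mem _ c hx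
  have hkill : ∀ x ∈ U, φ x = 0 := by
    intro x hx
    induction hx using Submodule.span_induction with
    | mem x hx =>
      obtain ⟨g', hg', rfl⟩ := hx
      exact hcon g' hg'
    | zero => exact map_zero φ
    | add x y _ _ hx hy => rw [map_add, hx, hy, add_zero]
    | smul c x _ hx => rw [map_smul, hx, smul_zero]
  have huU : u ∈ U := Submodule.subset_span ⟨1, H.one_mem, rfl⟩
  have h1 : LinearEquiv.transvection h0 = 1 := by
    refine N_of_pCore hp H hOp U U hinv hinv _ hm ?_ ?_ ?_
    · intro x
      rw [LinearEquiv.transvection.apply, add_sub_cancel_left]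
      exact U.smul_mem _ huU
    · intro x hx
      rw [LinearEquiv.transvection.apply, add_sub_cancel_left]
      exact U.smul_mem _ huU
    · intro x hx
      rw [LinearEquiv.transvection.apply, hkill x hx, zero_smul, add_zero]
  apply hφ
  ext x
  have := congrArg (fun e : V ≃ₗ[ZMod p] V => e x) h1
  simp only [LinearEquiv.transvection.apply] at this
  have h2 : φ x • u = 0 := by
    have h3 : x + φ x • u = x := this
    simpa using h3
  rcases smul_eq_zero.1 h2 with h3 | h3
  · simpa using h3
  · exact absurd h3 hu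

end Cfsg.Agent.Lib.H57McL
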