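import Cfsg.Agent.Lib.H57McLDefs

set_option autoImplicit false
set_option linter.unusedSectionVars false

namespace Cfsg.Agent.Lib.H57McL

open Module

variable {F V : Type*} [Field F] [AddCommGroup V] [Module F V]

/-- the contragredient action on the dual space -/
theorem exists_contra (H : Subgroup (V ≃ₗ[F] V)) :
    ∃ a' : ↥H →* (Dual F V ≃ₗ[F] Dual F V),
      ∀ (g : ↥H) (φ : Dual F V) (x : V), a' g φ x = φ ((g : V ≃ₗ[F] V).symm x) := by
  refine ⟨MonoidHom.mk' (fun g => ((g : V ≃ₗ[F] V).symm).dualMap) ?_, fun g φ x => rfl⟩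
  intro g h
  ext φ x
  rfl

end Cfsg.Agent.Lib.H57McL
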