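import Cfsg.Agent.Lib.H57McLDefs

set_option autoImplicit false
set_option linter.unusedSectionVars false

namespace Cfsg.Agent.Lib.H57McL

open Module

variable {F V : Type*} [Field F] [AddCommGroup V] [Module F V]

/-- induction over a subgroup generated by transvections -/
theorem gen_induction (H : Subgroup (V ≃ₗ[F] V)) (T₀ : Set (V ≃ₗ[F] V))
    (hHT : H = Subgroup.closure T₀)
    (hT : ∀ t ∈ T₀, ∃ (u : V) (φ : Dual F V) (h : φ u = 0), t = LinearEquiv.transvection h)
    (P : ↥H → Prop) (h1 : P 1)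
    (hstep : ∀ h g : ↥H, (∃ (v : V) (ψ : Dual F V), SH H v ψ ∧
      ∀ x, (h : V ≃ₗ[F] V) x = x + ψ x • v) → P g → P (h * g)) (g : ↥H) : P g := by
  obtain ⟨g, hg⟩ := g
  have hsub : ∀ t ∈ T₀, t ∈ H := fun t ht => hHT ▸ Subgroup.subset_closure ht
  have key : ∀ x (hx : x ∈ Subgroup.closure T₀), ∀ hx' : x ∈ H, P ⟨x, hx'⟩ := by
    intro x hx
    induction hx using Subgroup.closure_induction_left with
    | one => intro _; exact h1
    | mul_left t ht y _ ih =>
      intro hx'
      have htH := hsub t ht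
      have hyH : y ∈ H := by
        have := H.mul_mem (H.inv_mem htH) hx'
        rwa [inv_mul_cancel_left] at this
      obtain ⟨u, φ, h0, rfl⟩ := hT t ht
      exact hstep ⟨_, htH⟩ ⟨y, hyH⟩ ⟨u, φ, SH_iff.2 ⟨h0, htH⟩, fun x => rfl⟩ (ih hyH)
    | inv_mul_cancel t ht y _ ih =>
      intro hx'
      have htH := hsub t ht
      have hyH : y ∈ H := by
        have := H.mul_mem htH hx'
        rwa [mul_inv_cancel_left] at this
      obtain ⟨u, φ, h0, rfl⟩ := hT t ht
      have h0' : φ (-u) = 0 := by rw [map_neg, h0, neg_zero]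
      have hinv : (LinearEquiv.transvection h0)⁻¹ = LinearEquiv.transvection h0' :=
        LinearEquiv.transvection.inv_eq h0 h0'
      refine hstep ⟨_, H.inv_mem htH⟩ ⟨y, hyH⟩ ⟨-u, φ, SH_iff.2 ⟨h0', hinv ▸ H.inv_mem htH⟩,
        fun x => ?_⟩ (ih hyH)
      show (LinearEquiv.transvection h0)⁻¹ x = _
      rw [hinv]; rfl
  exact key g (hHT ▸ hg) hg

end Cfsg.Agent.Lib.H57McL
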