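import Cfsg.Agent.Lib.H57McLDefs
import Cfsg.Agent.Lib.H57McLE2
import Cfsg.Agent.Lib.H57McLE3
import Cfsg.Agent.Lib.H57McLE3b
import Cfsg.Agent.Lib.H57McLE4
import Cfsg.Agent.Lib.H57McLE5
import Cfsg.Agent.Lib.H57McLE5b

set_option autoImplicit false
set_option linter.unusedSectionVars false

namespace Cfsg.Agent.Lib.H57McL

open Module

private theorem E6_symm {F V : Type*} [Field F] [AddCommGroup V] [Module F V] (h : V ≃ₗ[F] V)
    {v : V} {ψ : Dual F V} (hv : ψ v = 0) (hh : ∀ x, h x = x + ψ x • v) (x : V) :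
    h.symm x = x - ψ x • v := by
  rw [LinearEquiv.symm_apply_eq, hh]
  simp [hv]

theorem exists_tsys {p : ℕ} [Fact p.Prime] (hp : Odd p) {V : Type*} [AddCommGroup V]
    [Module (ZMod p) V] (H : Subgroup (V ≃ₗ[ZMod p] V)) (T₀ : Set (V ≃ₗ[ZMod p] V))
    (hHT : H = Subgroup.closure T₀)
    (hT : ∀ t ∈ T₀, ∃ (u : V) (φ : Dual (ZMod p) V) (h : φ u = 0),
      t = LinearEquiv.transvection h)
    (hOp : Cfsg.pCore p ↥H = ⊥) :
    ∃ T : TSys (ZMod p) V (Dual (ZMod p) V) ↥H, Conc H T ∧ T.NProp := by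
  obtain ⟨a', ha'⟩ := exists_contra H
  have hcontra : ∀ (h : ↥H) (v : V) (ψ : Dual (ZMod p) V), ψ v = 0 →
      (∀ x, (h : V ≃ₗ[ZMod p] V) x = x + ψ x • v) → ∀ φ, a' h φ = φ - φ v • ψ := by
    intro h v ψ hv hh φ
    ext x
    rw [ha', E6_symm _ hv hh]
    simp [mul_comm]
  let T : TSys (ZMod p) V (Dual (ZMod p) V) ↥H :=
    { e := Dual.eval (ZMod p) V
      a := H.subtype
      a' := a'
      S := SH H
      e_inv := by
        intro g u φ
        rw [Dual.eval_apply, Dual.eval_apply, ha']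
        simp
      S_inv := by
        intro g u φ h
        have : a' g φ = φ ∘ₗ ((g : V ≃ₗ[ZMod p] V).symm : V →ₗ[ZMod p] V) := by
          ext x
          rw [ha']
          rfl
        rw [this]
        exact SH_conj h g.2
      S_perp := by
        intro u φ h
        obtain ⟨h0, -⟩ := SH_iff.mp h
        exact h0
      S_zero_left := SH_zero_left
      S_zero_right := SH_zero_right
      S_add_left := fun u u' φ h h' => SH_add_left h h'
      S_add_right := fun u φ φ' h h' => SH_add_right h h'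
      S_smul_left := fun c u φ h => SH_smul_left c h
      S_smul_right := fun c u φ h => SH_smul_right c h
      tv := by
        intro v ψ h
        obtain ⟨h0, hmem⟩ := SH_iff.mp h
        have hx : ∀ x, ((⟨LinearEquiv.transvection h0, hmem⟩ : ↥H) : V ≃ₗ[ZMod p] V) x
            = x + ψ x • v := fun x => LinearEquiv.transvection.apply h0 x
        exact ⟨⟨LinearEquiv.transvection h0, hmem⟩, hx, hcontra _ v ψ h0 hx⟩
      gen := by
        intro P h1 hstep g
        refine gen_induction H T₀ hHT hT P h1 ?_ g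
        rintro h g ⟨v, ψ, hS, hx⟩ hg
        obtain ⟨h0, -⟩ := SH_iff.mp hS
        exact hstep h g ⟨v, ψ, hS, hx, hcontra h v ψ h0 hx⟩ hg
      K := by
        intro u φ h hu hφ
        obtain ⟨g, hg, hne⟩ := SH_K hp H hOp h hu hφ
        exact ⟨⟨g, hg⟩, hne⟩ }
  refine ⟨T, ⟨fun u φ => rfl, fun g x => rfl, ha', fun u φ => SH_iff⟩, ?_⟩
  rw [TSys.nProp_iff]
  intro U₁ U₂ _ h1 h2 g hV hU2 hU1 x
  have := N_of_pCore hp H hOp U₁ U₂ (fun g hg x hx => h1 ⟨g, hg⟩ x hx)
    (fun g hg x hx => h2 ⟨g, hg⟩ x hx) (g : V ≃ₗ[ZMod p] V) g.2 hV hU2 hU1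
  change (g : V ≃ₗ[ZMod p] V) x = x
  rw [this]
  rfl

end Cfsg.Agent.Lib.H57McL
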