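import Cfsg.Agent.Lib.H57McLDefs
import Cfsg.Agent.Lib.H57McLD4

set_option autoImplicit false
set_option linter.unusedSectionVars false

namespace Cfsg.Agent.Lib.H57McL

open Module

variable {F V : Type*} [Field F] [AddCommGroup V] [Module F V]
  {H : Subgroup (V ≃ₗ[F] V)} {T : TSys F V (Dual F V) ↥H}

theorem Kgrp_le (u₀ : V) : Kgrp H T u₀ ≤ H := by
  rw [Kgrp_def, Subgroup.closure_le]
  rintro t ⟨x, φ, h, -, hH, rfl⟩
  exact hH

theorem Kgrp_normal (hC : Conc H T) (u₀ : V) : ((Kgrp H T u₀).subgroupOf H).Normal := by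
  have key : ∀ g ∈ H, ∀ k ∈ Kgrp H T u₀, g * k * g⁻¹ ∈ Kgrp H T u₀ := by
    intro g hg k hk
    rw [Kgrp_def] at hk ⊢
    induction hk using Subgroup.closure_induction with
    | mem t ht =>
      obtain ⟨x, φ, h, hO, hH, rfl⟩ := ht
      apply Subgroup.subset_closure
      have h' : (φ.comp (g.symm : V →ₗ[F] V)) (g x) = 0 := by simp [h]
      have heq : g * LinearEquiv.transvection h * g⁻¹ = LinearEquiv.transvection h' := by
        ext y
        simp only [LinearEquiv.mul_apply, LinearEquiv.transvection.apply, map_add, map_smul,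
          LinearMap.comp_apply, LinearEquiv.coe_coe]
        have e1 : g (g⁻¹ y) = y := by
          rw [← LinearEquiv.mul_apply, mul_inv_cancel]; rfl
        rw [e1]
        rfl
      refine ⟨g x, φ.comp (g.symm : V →ₗ[F] V), h', ?_, ?_, heq⟩
      · obtain ⟨g0, hg0⟩ := TSys.orb_iff.1 hO
        refine TSys.orb_iff.2 ⟨⟨g, hg⟩ * g0, ?_⟩
        rw [map_mul, LinearEquiv.mul_apply, hg0, hC.a_eq]
      · rw [← heq]
        exact H.mul_mem (H.mul_mem hg hH) (H.inv_mem hg)
    | one => simp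
    | mul a b _ _ iha ihb =>
      have : g * (a * b) * g⁻¹ = (g * a * g⁻¹) * (g * b * g⁻¹) := by group
      rw [this]
      exact Subgroup.mul_mem _ iha ihb
    | inv a _ iha =>
      have : g * a⁻¹ * g⁻¹ = (g * a * g⁻¹)⁻¹ := by group
      rw [this]
      exact Subgroup.inv_mem _ iha
  constructor
  intro n hn g
  rw [Subgroup.mem_subgroupOf] at hn ⊢
  exact key g.1 g.2 n.1 hn

end Cfsg.Agent.Lib.H57McL
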