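import Cfsg.Agent.Lib.H57McLDefs
import Cfsg.Agent.Lib.H57McLD4

set_option autoImplicit false
set_option linter.unusedSectionVars false

namespace Cfsg.Agent.Lib.H57McL

open Module

variable {F V : Type*} [Field F] [AddCommGroup V] [Module F V]
  {H : Subgroup (V ≃ₗ[F] V)} {T : TSys F V (Dual F V) ↥H}

theorem Kgrp_fix (hC : Conc H T) {u₀ : V} {h : V ≃ₗ[F] V} (hh : h ∈ Kgrp H T u₀) {v : V}
    (hv : ∀ φ ∈ T.Phi u₀, φ v = 0) : h v = v := by
  rw [Kgrp_def] at hh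
  induction hh using Subgroup.closure_induction with
  | mem t ht =>
    obtain ⟨x, φ, h, hO, hH, rfl⟩ := ht
    have hφ : φ ∈ T.Phi u₀ := by
      rw [TSys.Phi_def]
      exact Submodule.subset_span ⟨x, hO, (hC.S_iff x φ).2 ⟨h, hH⟩⟩
    rw [LinearEquiv.transvection.apply, hv φ hφ, zero_smul, add_zero]
  | one => rfl
  | mul a b _ _ iha ihb => rw [LinearEquiv.mul_apply, ihb, iha]
  | inv a _ iha =>
    calc a⁻¹ v = a⁻¹ (a v) := by rw [iha]
      _ = v := by rw [← LinearEquiv.mul_apply, inv_mul_cancel]; rfl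

theorem W_map (hC : Conc H T) (u₀ : V) {h : V ≃ₗ[F] V} (hh : h ∈ H) :
    (T.W u₀).map (h : V →ₗ[F] V) = T.W u₀ := by
  have key : ∀ g ∈ H, (T.W u₀).map (g : V →ₗ[F] V) ≤ T.W u₀ := by
    intro g hg
    rw [TSys.W_def, Submodule.map_span, Submodule.span_le]
    rintro _ ⟨x, hx, rfl⟩
    apply Submodule.subset_span
    obtain ⟨g0, hg0⟩ := TSys.orb_iff.1 hx
    refine TSys.orb_iff.2 ⟨⟨g, hg⟩ * g0, ?_⟩
    rw [map_mul, LinearEquiv.mul_apply, hg0, hC.a_eq]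
    rfl
  refine le_antisymm (key h hh) ?_
  intro x hx
  refine ⟨h⁻¹ x, key h⁻¹ (H.inv_mem hh) ⟨x, hx, rfl⟩, ?_⟩
  change h (h⁻¹ x) = x
  rw [← LinearEquiv.mul_apply, mul_inv_cancel]; rfl

end Cfsg.Agent.Lib.H57McL
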