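import Cfsg.Agent.Lib.H57McLDefs
import Cfsg.Agent.Lib.H57McLD4

set_option autoImplicit false
set_option linter.unusedSectionVars false

namespace Cfsg.Agent.Lib.H57McL

open Module

variable {F V : Type*} [Field F] [AddCommGroup V] [Module F V]
  {H : Subgroup (V ≃ₗ[F] V)} {T : TSys F V (Dual F V) ↥H}

theorem iSup_Kgrp (hC : Conc H T) {n : ℕ} (r : Fin n → V)
    (hr : ∀ u, T.IsCentre u → ∃ j, T.Orb (r j) u) : ⨆ j, Kgrp H T (r j) = H := by
  apply le_antisymm
  · apply iSup_le
    intro j
    rw [Kgrp_def, Subgroup.closure_le]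
    rintro t ⟨x, φ, h, -, hH, rfl⟩
    exact hH
  · intro g hg
    have key : ∀ g : ↥H, (g : V ≃ₗ[F] V) ∈ ⨆ j, Kgrp H T (r j) := by
      apply T.gen
      · exact Subgroup.one_mem _
      · rintro h g ⟨v, ψ, hS, ha, -⟩ hg
        rw [Subgroup.coe_mul]
        refine Subgroup.mul_mem _ ?_ hg
        obtain ⟨h0, hH⟩ := (hC.S_iff _ _).1 hS
        have heq : (h : V ≃ₗ[F] V) = LinearEquiv.transvection h0 := by
          apply LinearEquiv.ext
          intro x
          rw [← hC.a_eq, ha, hC.e_eq, LinearEquiv.transvection.apply]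
        by_cases hv : v = 0
        · have : (h : V ≃ₗ[F] V) = 1 := by
            apply LinearEquiv.ext
            intro x
            rw [← hC.a_eq, ha, hv]
            simp
          rw [this]
          exact Subgroup.one_mem _
        by_cases hψ : ψ = 0
        · have : (h : V ≃ₗ[F] V) = 1 := by
            apply LinearEquiv.ext
            intro x
            rw [← hC.a_eq, ha, hψ]
            simp
          rw [this]
          exact Subgroup.one_mem _
        obtain ⟨j, hj⟩ := hr v (TSys.isCentre_iff.2 ⟨hv, ψ, hψ, hS⟩)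
        apply Subgroup.mem_iSup_of_mem j
        rw [heq, Kgrp_def]
        exact Subgroup.subset_closure ⟨v, ψ, h0, hj, hH, rfl⟩
    exact key ⟨g, hg⟩

end Cfsg.Agent.Lib.H57McL
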