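import Cfsg.Agent.Lib.H57McLDefs
import Cfsg.Agent.Lib.H57McLD4

set_option autoImplicit false
set_option linter.unusedSectionVars false

namespace Cfsg.Agent.Lib.H57McL

open Module

variable {F V : Type*} [Field F] [AddCommGroup V] [Module F V] [Finite V] [Finite (Dual F V)]
  {H : Subgroup (V ≃ₗ[F] V)} {T : TSys F V (Dual F V) ↥H}

theorem Kgrp_commute (hC : Conc H T) (h2 : (2 : F) ≠ 0) (hN : T.NProp) {u₀ u₁ : V}
    (hu₀ : T.IsCentre u₀) (hu₁ : T.IsCentre u₁) (hne : ¬ T.Orb u₀ u₁) {a b : V ≃ₗ[F] V}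
    (ha : a ∈ Kgrp H T u₀) (hb : b ∈ Kgrp H T u₁) : a * b = b * a := by
  have hne' : ¬ T.Orb u₁ u₀ := fun h => hne (T.orb_symm h)
  have hgen : ∀ t ∈ {t : V ≃ₗ[F] V | ∃ (x : V) (φ : Module.Dual F V) (h : φ x = 0),
      T.Orb u₀ x ∧ LinearEquiv.transvection h ∈ H ∧ t = LinearEquiv.transvection h},
      ∀ s ∈ {t : V ≃ₗ[F] V | ∃ (x : V) (φ : Module.Dual F V) (h : φ x = 0),
      T.Orb u₁ x ∧ LinearEquiv.transvection h ∈ H ∧ t = LinearEquiv.transvection h},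
      t * s = s * t := by
    rintro t ⟨x, φ, h, hx, hH, rfl⟩ s ⟨y, ψ, h', hy, hH', rfl⟩
    have hφ : φ ∈ T.Phi u₀ :=
      (T.mem_Phi_iff h2 hN hu₀).2 ⟨x, hx, (hC.S_iff _ _).2 ⟨h, hH⟩⟩
    have hψ : ψ ∈ T.Phi u₁ :=
      (T.mem_Phi_iff h2 hN hu₁).2 ⟨y, hy, (hC.S_iff _ _).2 ⟨h', hH'⟩⟩
    have hxW : x ∈ T.W u₀ := (T.mem_W_iff h2 hN hu₀).2 (Or.inr hx)
    have hyW : y ∈ T.W u₁ := (T.mem_W_iff h2 hN hu₁).2 (Or.inr hy)
    have e1 : φ y = 0 := by
      rw [← hC.e_eq]; exact T.Phi_W_perp h2 hN hu₀ hu₁ hne hφ hyW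
    have e2 : ψ x = 0 := by
      rw [← hC.e_eq]; exact T.Phi_W_perp h2 hN hu₁ hu₀ hne' hψ hxW
    apply LinearEquiv.ext
    intro z
    rw [LinearEquiv.mul_apply, LinearEquiv.mul_apply, LinearEquiv.transvection.apply,
      LinearEquiv.transvection.apply, LinearEquiv.transvection.apply,
      LinearEquiv.transvection.apply]
    simp only [map_add, map_smul, e1, e2, smul_eq_mul, mul_zero, add_zero]
    abel
  rw [Kgrp_def] at ha hb
  have hb' : b ∈ Subgroup.centralizer {t : V ≃ₗ[F] V | ∃ (x : V) (φ : Module.Dual F V)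
      (h : φ x = 0), T.Orb u₀ x ∧ LinearEquiv.transvection h ∈ H ∧
      t = LinearEquiv.transvection h} := by
    refine (Subgroup.closure_le _).2 ?_ hb
    intro s hs
    rw [SetLike.mem_coe, Subgroup.mem_centralizer_iff]
    intro t ht
    exact hgen t ht s hs
  have ha' : a ∈ Subgroup.centralizer ({b} : Set (V ≃ₗ[F] V)) := by
    refine (Subgroup.closure_le _).2 ?_ ha
    intro t ht
    rw [SetLike.mem_coe, Subgroup.mem_centralizer_iff]
    rintro _ rfl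
    exact ((Subgroup.mem_centralizer_iff.1 hb') t ht).symm
  exact ((Subgroup.mem_centralizer_iff.1 ha') b rfl).symm

end Cfsg.Agent.Lib.H57McL
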