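import Cfsg.Agent.Lib.H57McLDefs

set_option autoImplicit false
set_option linter.unusedSectionVars false

namespace Cfsg.Agent.Lib.H57McL

open Module

variable {F V : Type*} [Field F] [AddCommGroup V] [Module F V]

/-- the restriction to `W` of a transvection with centre in `W` -/
theorem restrict_tv (K : Subgroup (V ≃ₗ[F] V)) (W : Submodule F V)
    (ρ : ↥K →* (↥W ≃ₗ[F] ↥W))
    (hρ : ∀ (g : ↥K) (v : ↥W), ((ρ g v : ↥W) : V) = (g : V ≃ₗ[F] V) (v : V))
    (x : ↥W) (φ : Dual F V) (h : φ (x : V) = 0) (hK : LinearEquiv.transvection h ∈ K) :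
    ρ ⟨LinearEquiv.transvection h, hK⟩ =
      LinearEquiv.transvection (f := φ ∘ₗ W.subtype) (v := x) (by simpa using h) := by
  ext v
  rw [hρ]
  simp [LinearEquiv.transvection.apply, LinearMap.transvection.apply]

end Cfsg.Agent.Lib.H57McL
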