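import Cfsg.Agent.Lib.H57McLDefs

set_option autoImplicit false
set_option linter.unusedSectionVars false

namespace Cfsg.Agent.Lib.H57McL

open Module

variable {F V : Type*} [Field F] [AddCommGroup V] [Module F V]

/-- a functional on `W` vanishing on the common kernel (in `W`) of a subspace `A` of `V^*`
is the restriction of an element of `A` -/
theorem exists_of_coann [FiniteDimensional F V] (W : Submodule F V) (A : Submodule F (Dual F V))
    (f : Dual F ↥W) (h : ∀ y : ↥W, (∀ φ ∈ A, φ (y : V) = 0) → f y = 0) :
    ∃ φ ∈ A, ∀ y : ↥W, φ (y : V) = f y := by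
  set A' : Submodule F (Dual F ↥W) := A.map (W.subtype.dualMap) with hA'
  have hf : f ∈ A'.dualCoannihilator.dualAnnihilator := by
    rw [Submodule.mem_dualAnnihilator]
    intro y hy
    apply h y
    intro φ hφ
    rw [Submodule.mem_dualCoannihilator] at hy
    exact hy _ (Submodule.mem_map_of_mem hφ)
  rw [Subspace.dualCoannihilator_dualAnnihilator_eq] at hf
  obtain ⟨φ, hφ, rfl⟩ := hf
  exact ⟨φ, hφ, fun y => rfl⟩

end Cfsg.Agent.Lib.H57McL
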