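import Cfsg.Agent.Lib.H57McLDefs
import Cfsg.Agent.Lib.H57McLD4
import Cfsg.Agent.Lib.H57McLL5b

set_option autoImplicit false
set_option linter.unusedSectionVars false

namespace Cfsg.Agent.Lib.H57McL

open Module

variable {F V : Type*} [Field F] [AddCommGroup V] [Module F V] [Finite V] [Finite (Dual F V)]
  {H : Subgroup (V ≃ₗ[F] V)} {T : TSys F V (Dual F V) ↥H}

/-- (not thin) every transvection of `W u₀` is induced by a transvection of the system -/
theorem exists_S_of_dual (hC : Conc H T) (h2 : (2 : F) ≠ 0) (hN : T.NProp) {u₀ : V}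
    (hu : T.IsCentre u₀) (hnt : ¬ T.Thin u₀) (x : ↥(T.W u₀)) (f : Dual F ↥(T.W u₀))
    (hf : f x = 0) : ∃ φ, T.S (x : V) φ ∧ ∀ y : ↥(T.W u₀), φ (y : V) = f y := by
  let A : Submodule F (Dual F V) :=
    { carrier := {φ | T.S (x : V) φ}
      add_mem' := fun ha hb => T.S_add_right _ _ _ ha hb
      zero_mem' := T.S_zero_right _
      smul_mem' := fun c _ ha => T.S_smul_right c _ _ ha }
  haveI : FiniteDimensional F V := Module.Finite.of_finite
  obtain ⟨φ, hφ, hφf⟩ := exists_of_coann (T.W u₀) A f (by
    intro y hy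
    by_cases hx0 : (x : V) = 0
    · have hy0 : (y : V) = 0 := by
        rw [← Module.forall_dual_apply_eq_zero_iff F]
        intro φ
        refine hy φ ?_
        change T.S (x : V) φ
        rw [hx0]
        exact T.S_zero_left φ
      have : y = 0 := Subtype.ext hy0
      rw [this, map_zero]
    · have hxO : T.Orb u₀ (x : V) := ((T.mem_W_iff h2 hN hu).1 x.2).resolve_left hx0
      rcases (T.mem_W_iff h2 hN hu).1 y.2 with hy0 | hyO
      · have : y = 0 := Subtype.ext hy0
        rw [this, map_zero]
      · have hxc : T.IsCentre (x : V) := T.isCentre_orb hxO hu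
        have hxnt : ¬ T.Thin (x : V) := fun ht => hnt (T.thin_orb (T.orb_symm hxO) ht)
        have hnadj : ¬ T.Adj (x : V) (y : V) := by
          intro hadj
          obtain ⟨-, φ, hS, he⟩ := TSys.adj_iff.1 hadj
          apply he
          rw [hC.e_eq]
          exact hy φ hS
        obtain ⟨c, hc⟩ := T.perp_prop hxc hxnt (T.orb_trans (T.orb_symm hxO) hyO) hnadj
        have : y = c • x := Subtype.ext hc
        rw [this, map_smul, hf, smul_zero])
  exact ⟨φ, hφ, hφf⟩

end Cfsg.Agent.Lib.H57McL
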