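import Cfsg.Agent.Lib.H57McLDefs
import Cfsg.Agent.Lib.Helper95SL

set_option autoImplicit false
set_option linter.unusedSectionVars false

namespace Cfsg.Agent.Lib.H57McL

open Module

/-- transport of invertible matrices to `W` along coordinates. -/
private noncomputable def L4_hom {K W : Type*} [Field K] [AddCommGroup W] [Module K W] {n : ℕ}
    (β : W ≃ₗ[K] (Fin n → K)) : GL (Fin n) K →* (W ≃ₗ[K] W) :=
  MonoidHom.mk' (fun g => β.trans ((Cfsg.Agent.Lib.Helper95Basic.glEquiv (Fin n) K g).trans β.symm))
    (by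
      intro g h
      ext x
      simp [LinearEquiv.mul_apply, Matrix.mulVec_mulVec])

private theorem L4_hom_apply {K W : Type*} [Field K] [AddCommGroup W] [Module K W] {n : ℕ}
    (β : W ≃ₗ[K] (Fin n → K)) (g : GL (Fin n) K) (x : W) :
    L4_hom β g x = β.symm ((g : Matrix (Fin n) (Fin n) K).mulVec (β x)) := rfl

private theorem L4_small {K W : Type*} [Field K] [AddCommGroup W] [Module K W]
    [FiniteDimensional K W] (hn : finrank K W ≤ 1)
    (e : W ≃ₗ[K] W) (he : LinearMap.det (e : W →ₗ[K] W) = 1) : e = 1 := by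
  rcases Nat.le_one_iff_eq_zero_or_eq_one.mp hn with h0 | h1
  · have : Subsingleton W := finrank_zero_iff.mp h0
    ext x
    exact Subsingleton.elim _ _
  · obtain ⟨v, hv0, hv⟩ := finrank_eq_one_iff'.mp h1
    obtain ⟨c, hc⟩ := hv (e v)
    have hlin : (e : W →ₗ[K] W) = c • LinearMap.id := by
      ext w
      obtain ⟨d, rfl⟩ := hv w
      simp only [LinearEquiv.coe_coe, map_smul, LinearMap.smul_apply, LinearMap.id_apply, ← hc]
    rw [hlin, LinearMap.det_smul, LinearMap.det_id, h1, pow_one, mul_one] at he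
    ext w
    have := congrArg (fun f : W →ₗ[K] W => f w) hlin
    simpa [he] using this

/-- `SL(W)` is generated by the transvections -/
theorem sl_gen {K W : Type*} [Field K] [AddCommGroup W] [Module K W] [FiniteDimensional K W]
    (M : Subgroup (W ≃ₗ[K] W))
    (hM : ∀ (x : W) (f : Dual K W) (h : f x = 0), LinearEquiv.transvection h ∈ M)
    (e : W ≃ₗ[K] W) (he : LinearMap.det (e : W →ₗ[K] W) = 1) : e ∈ M := by
  by_cases hn : finrank K W ≤ 1
  · rw [L4_small hn e he]
    exact M.one_mem
  · push Not at hn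
    set n := finrank K W with hndef
    let β : W ≃ₗ[K] (Fin n → K) := (finBasis K W).equivFun
    haveI : Nontrivial (Fin n) := Fin.nontrivial_iff_two_le.mpr hn
    have hle := Cfsg.Agent.Lib.Helper95SL.specialLinear_le_of_tv (M.comap (L4_hom β)) (by
      intro a ℓ h
      rw [Subgroup.mem_comap]
      have h' : (ℓ ∘ₗ (β : W →ₗ[K] (Fin n → K))) (β.symm a) = 0 := by simpa using h
      have heq : L4_hom β (Cfsg.Agent.Lib.Helper95Basic.tv a ℓ h) = LinearEquiv.transvection h' := by
        ext x
        rw [L4_hom_apply, Cfsg.Agent.Lib.Helper95Basic.tv_mulVec, LinearEquiv.transvection.apply]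
        simp
      rw [heq]
      exact hM _ _ h')
    set g : GL (Fin n) K := Cfsg.Agent.Lib.Helper95Basic.mkGL (β.symm.trans (e.trans β)) with hg
    have hgdet : g ∈ Cfsg.Geo.specialLinear (Fin n) K := by
      rw [Cfsg.Agent.Lib.Helper95Basic.mem_specialLinear_iff, hg,
        Cfsg.Agent.Lib.Helper95Basic.det_mkGL]
      have := LinearMap.det_conj (e : W →ₗ[K] W) β
      rw [he] at this
      rw [← this]
      congr 1
    have hmem := hle hgdet
    rw [Subgroup.mem_comap] at hmem
    have heq : L4_hom β g = e := by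
      ext x
      rw [L4_hom_apply, hg, Cfsg.Agent.Lib.Helper95Basic.mkGL_mulVec]
      simp
    rwa [heq] at hmem

end Cfsg.Agent.Lib.H57McL
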