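import Cfsg.Agent.Lib.H57McLDefs
import Cfsg.Agent.Lib.H57McLD4
import Cfsg.Agent.Lib.H57McLL4
import Cfsg.Agent.Lib.H57McLG4
import Cfsg.Agent.Lib.H57McLG5

set_option autoImplicit false
set_option linter.unusedSectionVars false

namespace Cfsg.Agent.Lib.H57McL

open Module

variable {F V : Type*} [Field F] [AddCommGroup V] [Module F V] [Finite V] [Finite (Dual F V)]
  {H : Subgroup (V ≃ₗ[F] V)} {T : TSys F V (Dual F V) ↥H}

theorem range_SL (hC : Conc H T) (h2 : (2 : F) ≠ 0) (hN : T.NProp) {u₀ : V}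
    (hu : T.IsCentre u₀) (hnt : ¬ T.Thin u₀)
    (ρ : ↥(Kgrp H T u₀) →* (↥(T.W u₀) ≃ₗ[F] ↥(T.W u₀)))
    (hρ : ∀ (g : ↥(Kgrp H T u₀)) (v : ↥(T.W u₀)),
      ((ρ g v : ↥(T.W u₀)) : V) = (g : V ≃ₗ[F] V) (v : V)) :
    (ρ.range : Set (↥(T.W u₀) ≃ₗ[F] ↥(T.W u₀))) =
      {f : ↥(T.W u₀) ≃ₗ[F] ↥(T.W u₀) | LinearMap.det (f : ↥(T.W u₀) →ₗ[F] ↥(T.W u₀)) = 1} := by
  have hgen : ∀ (x : V) (φ : Dual F V) (h : φ x = 0), T.Orb u₀ x →
      LinearEquiv.transvection h ∈ H → LinearEquiv.transvection h ∈ Kgrp H T u₀ := by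
    intro x φ h hx hH
    rw [Kgrp_def]
    exact Subgroup.subset_closure ⟨x, φ, h, hx, hH, rfl⟩
  apply Set.Subset.antisymm
  · -- every element of the range has determinant one
    let δ : ↥(Kgrp H T u₀) →* Fˣ := LinearEquiv.det.comp ρ
    have hle : Kgrp H T u₀ ≤ δ.ker.map (Kgrp H T u₀).subtype := by
      calc Kgrp H T u₀ = Subgroup.closure {t | ∃ (x : V) (φ : Module.Dual F V) (h : φ x = 0),
            T.Orb u₀ x ∧ LinearEquiv.transvection h ∈ H ∧ t = LinearEquiv.transvection h} :=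
            Kgrp_def H T u₀
        _ ≤ δ.ker.map (Kgrp H T u₀).subtype := by
          rw [Subgroup.closure_le]
          rintro t ⟨x, φ, h, hx, hH, rfl⟩
          have hxW : x ∈ T.W u₀ := (T.mem_W_iff h2 hN hu).2 (Or.inr hx)
          refine ⟨⟨_, hgen x φ h hx hH⟩, ?_, rfl⟩
          show δ _ = 1
          show LinearEquiv.det (ρ _) = 1
          rw [restrict_tv (Kgrp H T u₀) (T.W u₀) ρ hρ ⟨x, hxW⟩ φ h (hgen x φ h hx hH)]
          exact LinearEquiv.transvection.det_eq_one _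
    rintro _ ⟨g, rfl⟩
    obtain ⟨g', hg', hgg'⟩ := hle g.2
    have : g' = g := Subtype.ext hgg'
    subst this
    have h1 : LinearEquiv.det (ρ g') = 1 := hg'
    show LinearMap.det ((ρ g' : ↥(T.W u₀) ≃ₗ[F] ↥(T.W u₀)) : ↥(T.W u₀) →ₗ[F] ↥(T.W u₀)) = 1
    rw [← LinearEquiv.coe_det, h1]
    rfl
  · intro e he
    have hfin : FiniteDimensional F ↥(T.W u₀) := Module.Finite.of_finite
    refine sl_gen ρ.range ?_ e he
    intro x f hf
    by_cases hx0 : x = 0
    · subst hx0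
      have : LinearEquiv.transvection hf = 1 := by
        ext y
        simp
      rw [this]
      exact Subgroup.one_mem _
    · obtain ⟨φ, hφS, hφ⟩ := exists_S_of_dual hC h2 hN hu hnt x f hf
      obtain ⟨h, hH⟩ := (hC.S_iff _ _).1 hφS
      have hx' : (x : V) ≠ 0 := fun h => hx0 (Subtype.ext h)
      have horb : T.Orb u₀ (x : V) := by
        rcases (T.mem_W_iff h2 hN hu).1 x.2 with h | h
        · exact absurd h hx'
        · exact h
      refine ⟨⟨_, hgen _ φ h horb hH⟩, ?_⟩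
      rw [restrict_tv (Kgrp H T u₀) (T.W u₀) ρ hρ x φ h (hgen _ φ h horb hH)]
      apply LinearEquiv.ext
      intro y
      rw [LinearEquiv.transvection.apply, LinearEquiv.transvection.apply]
      have : (φ ∘ₗ (T.W u₀).subtype) y = f y := hφ y
      rw [this]

end Cfsg.Agent.Lib.H57McL
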