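import Cfsg.Agent.Lib.H57McLDefs
import Cfsg.Agent.Lib.H57McLD4

set_option autoImplicit false
set_option linter.unusedSectionVars false

namespace Cfsg.Agent.Lib.H57McL

open Module

variable {F V : Type*} [Field F] [AddCommGroup V] [Module F V] [Finite V] [Finite (Dual F V)]
  {H : Subgroup (V ≃ₗ[F] V)} {T : TSys F V (Dual F V) ↥H}

/-- (thin) the alternating form on `W u₀` -/
theorem exists_form (hC : Conc H T) (h2 : (2 : F) ≠ 0) (hN : T.NProp) {u₀ : V}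
    (hu : T.IsCentre u₀) (ht : T.Thin u₀) :
    ∃ B : LinearMap.BilinForm F ↥(T.W u₀), B.IsAlt ∧ B.Nondegenerate ∧
      (∀ (x : ↥(T.W u₀)) (c : F), ∃ φ, T.S (x : V) φ ∧ ∀ y : ↥(T.W u₀), φ (y : V) = c * B y x) ∧
      (∀ (x : ↥(T.W u₀)) (φ : Dual F V), T.S (x : V) φ → x ≠ 0 →
        ∃ c : F, ∀ y : ↥(T.W u₀), φ (y : V) = c * B y x) := by
  obtain ⟨hu0, f₀, hf₀, hS₀⟩ := TSys.isCentre_iff.1 hu
  have hB : T.TB u₀ f₀ := ⟨hu0, hS₀, hf₀, ht⟩
  obtain ⟨f, hfS, hfne, hfskew⟩ := TSys.thin_linear h2 hN hB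
  let B : LinearMap.BilinForm F ↥(T.W u₀) :=
    LinearMap.mk₂ F (fun y x => f x (y : V))
      (fun y y' x => by simp) (fun c y x => by simp) (fun y x x' => by simp)
      (fun c y x => by simp)
  have hBa : ∀ y x : ↥(T.W u₀), B y x = f x (y : V) := fun y x => rfl
  have hskew : ∀ x y : ↥(T.W u₀), B y x = - B x y := by
    intro x y
    rw [hBa, hBa, ← hC.e_eq, ← hC.e_eq]
    exact hfskew x y
  have hline : ∀ (x : ↥(T.W u₀)) (φ : Dual F V), T.S (x : V) φ → x ≠ 0 → ∃ c : F, φ = c • f x := by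
    intro x φ hφ hx
    have hx' : (x : V) ≠ 0 := fun h => hx (Subtype.ext h)
    have horb : T.Orb u₀ (x : V) := by
      rcases (T.mem_W_iff h2 hN hu).1 x.2 with h | h
      · exact absurd h hx'
      · exact h
    have hthin : T.Thin (x : V) := T.thin_orb horb ht
    exact TSys.thin_iff.1 hthin (f x) φ (hfS x) hφ (hfne x hx)
  have hleft : ∀ y : ↥(T.W u₀), (∀ x, B y x = 0) → y = 0 := by
    intro y hy
    apply Subtype.ext
    apply T.W_nondeg h2 hN hu y.2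
    intro φ hφ
    obtain ⟨x, hx, hxS⟩ := (T.mem_Phi_iff h2 hN hu).1 hφ
    have hxW : x ∈ T.W u₀ := (T.mem_W_iff h2 hN hu).2 (Or.inr hx)
    have hx0 : (⟨x, hxW⟩ : ↥(T.W u₀)) ≠ 0 := by
      intro h
      exact T.orb_ne hx hu0 (congrArg Subtype.val h)
    obtain ⟨c, rfl⟩ := hline ⟨x, hxW⟩ φ hxS hx0
    rw [hC.e_eq]
    have := hy ⟨x, hxW⟩
    rw [hBa] at this
    simp [this]
  refine ⟨B, ?_, ⟨?_, ?_⟩, ?_, ?_⟩
  · intro x
    rw [hBa, ← hC.e_eq]
    exact T.S_perp _ _ (hfS x)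
  · intro y hy
    exact hleft y hy
  · intro y hy
    apply hleft y
    intro x
    rw [hskew, hy x, neg_zero]
  · intro x c
    refine ⟨c • f x, T.S_smul_right c _ _ (hfS x), fun y => ?_⟩
    rw [hBa]
    simp
  · intro x φ hφ hx
    obtain ⟨c, rfl⟩ := hline x φ hφ hx
    refine ⟨c, fun y => ?_⟩
    rw [hBa]
    simp

end Cfsg.Agent.Lib.H57McL
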