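import Cfsg.Agent.Lib.H57McLDefs
import Cfsg.Agent.Lib.H57McLD4
import Cfsg.Agent.Lib.H57McLG4
import Cfsg.Agent.Lib.H57McLG7
import Cfsg.Agent.Lib.Helper95Sp

set_option autoImplicit false
set_option linter.unusedSectionVars false

namespace Cfsg.Agent.Lib.H57McL

open Module

variable {F V : Type*} [Field F] [AddCommGroup V] [Module F V] [Finite V] [Finite (Dual F V)]
  {H : Subgroup (V ≃ₗ[F] V)} {T : TSys F V (Dual F V) ↥H}

/-- the group of isometries of a bilinear form -/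
def G8_iso {W : Type*} [AddCommGroup W] [Module F W] (B : LinearMap.BilinForm F W) :
    Subgroup (W ≃ₗ[F] W) where
  carrier := {f | ∀ x y, B (f x) (f y) = B x y}
  mul_mem' := by
    intro a b ha hb x y
    rw [LinearEquiv.mul_apply, LinearEquiv.mul_apply, ha, hb]
  one_mem' := fun x y => rfl
  inv_mem' := by
    intro a ha x y
    have h1 : a (a⁻¹ x) = x := a.apply_symm_apply x
    have h2 : a (a⁻¹ y) = y := a.apply_symm_apply y
    rw [← ha (a⁻¹ x) (a⁻¹ y), h1, h2]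

theorem range_Sp (hC : Conc H T) (h2 : (2 : F) ≠ 0) (hN : T.NProp) {u₀ : V}
    (hu : T.IsCentre u₀) (ht : T.Thin u₀)
    (ρ : ↥(Kgrp H T u₀) →* (↥(T.W u₀) ≃ₗ[F] ↥(T.W u₀)))
    (hρ : ∀ (g : ↥(Kgrp H T u₀)) (v : ↥(T.W u₀)),
      ((ρ g v : ↥(T.W u₀)) : V) = (g : V ≃ₗ[F] V) (v : V)) :
    ∃ B : LinearMap.BilinForm F ↥(T.W u₀), B.IsAlt ∧ B.Nondegenerate ∧
      (ρ.range : Set (↥(T.W u₀) ≃ₗ[F] ↥(T.W u₀))) =
        {f : ↥(T.W u₀) ≃ₗ[F] ↥(T.W u₀) | ∀ x y, B (f x) (f y) = B x y} := by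
  obtain ⟨B, hA, hB, hex, hline⟩ := exists_form hC h2 hN hu ht
  refine ⟨B, hA, hB, ?_⟩
  have hu0 : u₀ ≠ 0 := (TSys.isCentre_iff.1 hu).1
  have hgen : ∀ (x : V) (φ : Dual F V) (h : φ x = 0), T.Orb u₀ x →
      LinearEquiv.transvection h ∈ H → LinearEquiv.transvection h ∈ Kgrp H T u₀ := by
    intro x φ h hx hH
    rw [Kgrp_def]
    exact Subgroup.subset_closure ⟨x, φ, h, hx, hH, rfl⟩
  apply Set.Subset.antisymm
  · have hle : Kgrp H T u₀ ≤ ((G8_iso B).comap ρ).map (Kgrp H T u₀).subtype := by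
      calc Kgrp H T u₀ = Subgroup.closure {t | ∃ (x : V) (φ : Module.Dual F V) (h : φ x = 0),
            T.Orb u₀ x ∧ LinearEquiv.transvection h ∈ H ∧ t = LinearEquiv.transvection h} :=
            Kgrp_def H T u₀
        _ ≤ ((G8_iso B).comap ρ).map (Kgrp H T u₀).subtype := by
          rw [Subgroup.closure_le]
          rintro t ⟨x, φ, h, hx, hH, rfl⟩
          have hxW : x ∈ T.W u₀ := (T.mem_W_iff h2 hN hu).2 (Or.inr hx)
          refine ⟨⟨_, hgen x φ h hx hH⟩, ?_, rfl⟩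
          show ρ _ ∈ G8_iso B
          rw [restrict_tv (Kgrp H T u₀) (T.W u₀) ρ hρ ⟨x, hxW⟩ φ h (hgen x φ h hx hH)]
          have hx0 : (⟨x, hxW⟩ : ↥(T.W u₀)) ≠ 0 := by
            intro h'
            exact T.orb_ne hx hu0 (congrArg Subtype.val h')
          obtain ⟨c, hc⟩ := hline ⟨x, hxW⟩ φ ((hC.S_iff _ _).2 ⟨h, hH⟩) hx0
          have heq : ∀ y : ↥(T.W u₀),
              LinearEquiv.transvection (f := φ ∘ₗ (T.W u₀).subtype) (v := (⟨x, hxW⟩ : ↥(T.W u₀)))
                (by simpa using h) y = Cfsg.Agent.Lib.Helper95Sp.stv B hA ⟨x, hxW⟩ c y := by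
            intro y
            rw [LinearEquiv.transvection.apply, Cfsg.Agent.Lib.Helper95Sp.stv_apply]
            have : (φ ∘ₗ (T.W u₀).subtype) y = c * B y ⟨x, hxW⟩ := hc y
            rw [this]
          intro y z
          rw [heq, heq]
          exact Cfsg.Agent.Lib.Helper95Sp.stv_isometry hA _ c y z
    rintro _ ⟨g, rfl⟩
    obtain ⟨g', hg', hgg'⟩ := hle g.2
    have : g' = g := Subtype.ext hgg'
    subst this
    exact hg'
  · intro e he
    have hfin : FiniteDimensional F ↥(T.W u₀) := Module.Finite.of_finite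
    refine Cfsg.Agent.Lib.Helper95Sp.mem_of_isometry hB hA ρ.range ?_ e he
    intro x c
    by_cases hx0 : x = 0
    · subst hx0
      have : Cfsg.Agent.Lib.Helper95Sp.stv B hA 0 c = 1 := by
        ext y
        simp
      rw [this]
      exact Subgroup.one_mem _
    · obtain ⟨φ, hφS, hφ⟩ := hex x c
      obtain ⟨h, hH⟩ := (hC.S_iff _ _).1 hφS
      have hx' : (x : V) ≠ 0 := fun h => hx0 (Subtype.ext h)
      have horb : T.Orb u₀ (x : V) := by
        rcases (T.mem_W_iff h2 hN hu).1 x.2 with h | h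
        · exact absurd h hx'
        · exact h
      refine ⟨⟨_, hgen _ φ h horb hH⟩, ?_⟩
      rw [restrict_tv (Kgrp H T u₀) (T.W u₀) ρ hρ x φ h (hgen _ φ h horb hH)]
      apply LinearEquiv.ext
      intro y
      rw [LinearEquiv.transvection.apply, Cfsg.Agent.Lib.Helper95Sp.stv_apply]
      have : (φ ∘ₗ (T.W u₀).subtype) y = c * B y x := hφ y
      rw [this]

end Cfsg.Agent.Lib.H57McL
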