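import Cfsg.Agent.Lib.H57McLDefs

set_option autoImplicit false
set_option linter.unusedSectionVars false

namespace Cfsg.Agent.Lib.H57McL

open Module

/-- the trivial case `H = ⊥` of S5075 -/
theorem triv_case {F V : Type*} [Field F] [AddCommGroup V] [Module F V]
    (H : Subgroup (V ≃ₗ[F] V)) (hH : H = ⊥) :
    ∃ (n : ℕ) (W : Fin (n + 1) → Submodule F V) (K : Fin n → Subgroup (V ≃ₗ[F] V)),
      1 ≤ n ∧ DirectSum.IsInternal W ∧
      (∀ h ∈ H, ∀ i, (W i).map (h : V →ₗ[F] V) = W i) ∧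
      (∀ j, K j ≤ H ∧ ((K j).subgroupOf H).Normal) ∧ ⨆ j, K j = H ∧
      (∀ j, K j ⊓ (⨆ j' ∈ {j' : Fin n | j' ≠ j}, K j') = ⊥) ∧
      (∀ j j', j ≠ j' → ∀ a ∈ K j, ∀ b ∈ K j', a * b = b * a) ∧
      (∀ j, ∀ h ∈ K j, ∀ i : Fin (n + 1), i ≠ j.succ → ∀ v ∈ W i, h v = v) ∧
      (∀ j, ∃ ρ : ↥(K j) →* (↥(W j.succ) ≃ₗ[F] ↥(W j.succ)),
        (∀ (h : ↥(K j)) (v : ↥(W j.succ)), ((ρ h v : ↥(W j.succ)) : V) = (h : V ≃ₗ[F] V) (v : V)) ∧
        ((ρ.range : Set (↥(W j.succ) ≃ₗ[F] ↥(W j.succ))) =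
            {f : ↥(W j.succ) ≃ₗ[F] ↥(W j.succ) | LinearMap.det (f : ↥(W j.succ) →ₗ[F] ↥(W j.succ)) = 1} ∨
          ∃ B : LinearMap.BilinForm F ↥(W j.succ), B.IsAlt ∧ B.Nondegenerate ∧
            (ρ.range : Set (↥(W j.succ) ≃ₗ[F] ↥(W j.succ))) =
              {f : ↥(W j.succ) ≃ₗ[F] ↥(W j.succ) | ∀ x y, B (f x) (f y) = B x y})) := by
  classical
  subst hH
  refine ⟨1, Fin.cons ⊤ (fun _ => ⊥), fun _ => ⊥, le_refl 1, ?_, ?_, ?_, ?_, ?_, ?_, ?_, ?_⟩
  · rw [DirectSum.isInternal_submodule_iff_iSupIndep_and_iSup_eq_top]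
    constructor
    · intro i
      refine Fin.cases ?_ ?_ i
      · have : (⨆ j, ⨆ (_ : j ≠ (0 : Fin 2)),
            (Fin.cons ⊤ (fun _ => ⊥) : Fin 2 → Submodule F V) j) = ⊥ := by
          rw [eq_bot_iff]
          refine iSup_le fun j => iSup_le fun hj => ?_
          revert hj
          refine Fin.cases ?_ ?_ j
          · intro h; exact absurd rfl h
          · intro k _; exact le_refl _
        rw [this]
        exact disjoint_bot_right
      · intro k
        exact disjoint_bot_left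
    · exact eq_top_iff.2 (le_iSup (Fin.cons ⊤ (fun _ => ⊥) : Fin 2 → Submodule F V) 0)
  · intro h hh i
    rw [Subgroup.mem_bot] at hh
    subst hh
    exact Submodule.map_id _
  · intro j
    refine ⟨le_refl _, ?_⟩
    rw [Subgroup.subgroupOf_self]
    infer_instance
  · simp
  · intro j
    simp
  · intro j j' hjj'
    exact absurd (Subsingleton.elim j j') hjj'
  · intro j h hh i _ v _
    rw [Subgroup.mem_bot] at hh
    subst hh
    rfl
  · intro j
    refine ⟨1, ?_, Or.inl ?_⟩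
    · intro h v
      have : (h : V ≃ₗ[F] V) = 1 := Subgroup.mem_bot.1 h.2
      rw [this]
      rfl
    · have hsub : Subsingleton (↥((Fin.cons ⊤ (fun _ => ⊥) : Fin 2 → Submodule F V) j.succ)) := by
        show Subsingleton (↥(⊥ : Submodule F V))
        infer_instance
      ext f
      constructor
      · intro _
        show LinearMap.det f.toLinearMap = 1
        have : f.toLinearMap = LinearMap.id := by
          ext x
          exact congrArg _ (Subsingleton.elim _ _)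
        rw [this, LinearMap.det_id]
      · intro _
        refine ⟨1, ?_⟩
        ext x
        exact congrArg _ (Subsingleton.elim _ _)

end Cfsg.Agent.Lib.H57McL
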