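import Cfsg.Agent.Lib.H57McLDefs

set_option autoImplicit false
set_option linter.unusedSectionVars false

namespace Cfsg.Agent.Lib.H57McL

open Module

private theorem L1_gen {K A B : Type*} [Field K] [AddCommGroup A] [Module K A] [AddCommGroup B]
    [Module K B] (f : A →ₗ[K] B) (hf : Function.Injective f) (ξ : A →ₗ[K] K) :
    ∃ η : B →ₗ[K] K, ∀ a, ξ a = η (f a) := by
  obtain ⟨η, hη⟩ := LinearMap.dualMap_surjective_of_injective hf ξ
  exact ⟨η, fun a => by rw [← hη]; rfl⟩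

variable {F V : Type*} [Field F] [AddCommGroup V] [Module F V] [FiniteDimensional F V]

/-- if no nonzero element of `Φ` kills `W`, every vector agrees on `Φ` with a vector of `W` -/
theorem exists_proj (W : Submodule F V) (Φ : Submodule F (Dual F V))
    (h : ∀ φ ∈ Φ, (∀ x ∈ W, φ x = 0) → φ = 0) (v : V) : ∃ w ∈ W, ∀ φ ∈ Φ, φ v = φ w := by
  let f : Φ →ₗ[F] Dual F W := (W.subtype.dualMap).domRestrict Φ
  have hfa : ∀ (φ : Φ) (w : W), f φ w = φ.1 w.1 := fun φ w => rfl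
  have hf : Function.Injective f := by
    rw [injective_iff_map_eq_zero]
    intro φ hφ
    apply Subtype.ext
    apply h φ.1 φ.2
    intro x hx
    rw [← hfa φ ⟨x, hx⟩, hφ]
    rfl
  let ev : Φ →ₗ[F] F := (Dual.eval F V v).domRestrict Φ
  have heva : ∀ φ : Φ, ev φ = φ.1 v := fun φ => rfl
  obtain ⟨ξ, hξ⟩ := L1_gen (K := F) (A := Φ) (B := Dual F W) f hf ev
  obtain ⟨w, hw⟩ := (Module.evalEquiv F W).surjective ξ
  refine ⟨w.1, w.2, fun φ hφ => ?_⟩
  rw [← heva ⟨φ, hφ⟩, hξ, ← hw, Module.evalEquiv_apply, Module.Dual.eval_apply, hfa]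

end Cfsg.Agent.Lib.H57McL
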