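import Cfsg.Agent.Lib.H57McLDefs
import Cfsg.Agent.Lib.H57McLL1

set_option autoImplicit false
set_option linter.unusedSectionVars false

namespace Cfsg.Agent.Lib.H57McL

open Module

variable {F V : Type*} [Field F] [AddCommGroup V] [Module F V] [FiniteDimensional F V]

theorem iSup_cons_eq_top {n : ℕ} (W : Fin n → Submodule F V) (Φ : Fin n → Submodule F (Dual F V))
    (ha : ∀ i j, i ≠ j → ∀ φ ∈ Φ i, ∀ x ∈ W j, φ x = 0)
    (hc : ∀ j, ∀ φ ∈ Φ j, (∀ x ∈ W j, φ x = 0) → φ = 0) :
    ⨆ i, (Fin.cons (⨅ j, (Φ j).dualCoannihilator) W : Fin (n + 1) → Submodule F V) i = ⊤ := by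
  rw [eq_top_iff]
  intro v _
  choose w hw hwφ using fun j => exists_proj (W j) (Φ j) (hc j) v
  have hv : v = (v - ∑ j, w j) + ∑ j, w j := by abel
  rw [hv]
  apply Submodule.add_mem
  · apply Submodule.mem_iSup_of_mem (0 : Fin (n + 1))
    show v - ∑ j, w j ∈ ⨅ j, (Φ j).dualCoannihilator
    rw [Submodule.mem_iInf]
    intro i
    rw [Submodule.mem_dualCoannihilator]
    intro φ hφ
    rw [map_sub, map_sum, Finset.sum_eq_single i, hwφ i φ hφ, sub_self]
    · intro j _ hji
      exact ha i j hji.symm φ hφ _ (hw j)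
    · intro h
      exact absurd (Finset.mem_univ i) h
  · apply Submodule.sum_mem
    intro j _
    apply Submodule.mem_iSup_of_mem (Fin.succ j)
    exact hw j

end Cfsg.Agent.Lib.H57McL
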