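import Cfsg.Agent.Lib.H57McLDefs

set_option autoImplicit false
set_option linter.unusedSectionVars false

namespace Cfsg.Agent.Lib.H57McL

open Module

variable {F V : Type*} [Field F] [AddCommGroup V] [Module F V]

theorem iSupIndep_cons {n : ℕ} (W : Fin n → Submodule F V) (Φ : Fin n → Submodule F (Dual F V))
    (ha : ∀ i j, i ≠ j → ∀ φ ∈ Φ i, ∀ x ∈ W j, φ x = 0)
    (hb : ∀ j, ∀ x ∈ W j, (∀ φ ∈ Φ j, φ x = 0) → x = 0) :
    iSupIndep (Fin.cons (⨅ j, (Φ j).dualCoannihilator) W : Fin (n + 1) → Submodule F V) := by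
  intro i
  rw [Submodule.disjoint_def]
  refine Fin.cases ?_ (fun k => ?_) i
  · intro x hx0 hx
    have hx0' : x ∈ ⨅ j, (Φ j).dualCoannihilator := hx0
    have hle : (⨆ (j : Fin (n + 1)) (_ : j ≠ 0),
        (Fin.cons (⨅ j, (Φ j).dualCoannihilator) W : Fin (n + 1) → Submodule F V) j)
        ≤ ⨆ j ∈ (Finset.univ : Finset (Fin n)), W j := by
      apply iSup_le
      intro j
      apply iSup_le
      intro hj
      obtain ⟨k, rfl⟩ := Fin.exists_succ_eq.2 hj
      exact le_iSup₂_of_le k (Finset.mem_univ k) le_rfl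
    obtain ⟨μ, hμ⟩ := (Submodule.mem_iSup_finset_iff_exists_sum W x).1 (hle hx)
    have hz : ∀ i, (μ i : V) = 0 := by
      intro i
      apply hb i _ (μ i).2
      intro φ hφ
      have h1 : φ x = 0 := by
        rw [Submodule.mem_iInf] at hx0'
        exact (Submodule.mem_dualCoannihilator _).1 (hx0' i) φ hφ
      rw [← hμ, map_sum, Finset.sum_eq_single i] at h1
      · exact h1
      · intro j _ hji
        exact ha i j hji.symm φ hφ _ (μ j).2
      · intro h
        exact absurd (Finset.mem_univ i) h
    rw [← hμ]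
    exact Finset.sum_eq_zero fun i _ => hz i
  · intro x hxk hx
    have hxk' : x ∈ W k := hxk
    apply hb k x hxk'
    have hle : (⨆ (j : Fin (n + 1)) (_ : j ≠ Fin.succ k),
        (Fin.cons (⨅ j, (Φ j).dualCoannihilator) W : Fin (n + 1) → Submodule F V) j)
        ≤ (Φ k).dualCoannihilator := by
      apply iSup_le
      intro j
      apply iSup_le
      intro hj
      revert hj
      refine Fin.cases ?_ (fun l => ?_) j
      · intro _
        exact iInf_le (fun j => (Φ j).dualCoannihilator) k
      · intro hl y hy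
        have hy' : y ∈ W l := hy
        rw [Submodule.mem_dualCoannihilator]
        intro φ hφ
        exact ha k l (fun h => hl (by rw [h])) φ hφ y hy'
    exact (Submodule.mem_dualCoannihilator _).1 (hle hx)

end Cfsg.Agent.Lib.H57McL
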