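import Cfsg.Agent.Lib.H57McLDefs

set_option autoImplicit false
set_option linter.unusedSectionVars false

namespace Cfsg.Agent.Lib.H57McL

open Module

variable {F V : Type*} [Field F] [AddCommGroup V] [Module F V]

/-- restriction of a group of linear automorphisms to an invariant subspace -/
theorem exists_restrict (K : Subgroup (V ≃ₗ[F] V)) (W : Submodule F V)
    (h : ∀ g ∈ K, ∀ x ∈ W, g x ∈ W) :
    ∃ ρ : ↥K →* (↥W ≃ₗ[F] ↥W), ∀ (g : ↥K) (v : ↥W), ((ρ g v : ↥W) : V) = (g : V ≃ₗ[F] V) (v : V) := by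
  let r : ↥K → (↥W ≃ₗ[F] ↥W) := fun g =>
    { toFun := fun v => ⟨(g : V ≃ₗ[F] V) v, h g g.2 v v.2⟩
      invFun := fun v => ⟨((g⁻¹ : ↥K) : V ≃ₗ[F] V) v, h _ (g⁻¹).2 v v.2⟩
      map_add' := fun a b => Subtype.ext (by simp)
      map_smul' := fun c a => Subtype.ext (by simp)
      left_inv := fun v => Subtype.ext (by
        show ((g⁻¹ : ↥K) : V ≃ₗ[F] V) ((g : V ≃ₗ[F] V) v) = v
        rw [← LinearEquiv.mul_apply, ← Subgroup.coe_mul, inv_mul_cancel]
        rfl)
      right_inv := fun v => Subtype.ext (by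
        show (g : V ≃ₗ[F] V) (((g⁻¹ : ↥K) : V ≃ₗ[F] V) v) = v
        rw [← LinearEquiv.mul_apply, ← Subgroup.coe_mul, mul_inv_cancel]
        rfl) }
  refine ⟨{ toFun := r, map_one' := ?_, map_mul' := ?_ }, fun g v => rfl⟩
  · ext v
    rfl
  · intro a b
    ext v
    rfl

end Cfsg.Agent.Lib.H57McL
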