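import Cfsg.Agent.Lib.H57McLDefs

set_option autoImplicit false
set_option linter.unusedSectionVars false

namespace Cfsg.Agent.Lib.H57McL

open Module

variable {F V : Type*} [Field F] [AddCommGroup V] [Module F V]

/-- the pointwise stabiliser of a subspace -/
private def L6_fix (U : Submodule F V) : Subgroup (V ≃ₗ[F] V) where
  carrier := {g | ∀ v ∈ U, g v = v}
  one_mem' := fun v _ => rfl
  mul_mem' := by
    intro a b ha hb v hv
    rw [LinearEquiv.mul_apply, hb v hv, ha v hv]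
  inv_mem' := by
    intro a ha v hv
    have h1 : a⁻¹ (a v) = v := by
      rw [← LinearEquiv.mul_apply, inv_mul_cancel]
      rfl
    rw [ha v hv] at h1
    exact h1

theorem indep_of_fix {n : ℕ} (W : Fin (n + 1) → Submodule F V) (hW : ⨆ i, W i = ⊤)
    (K : Fin n → Subgroup (V ≃ₗ[F] V))
    (hfix : ∀ j, ∀ h ∈ K j, ∀ i : Fin (n + 1), i ≠ j.succ → ∀ v ∈ W i, h v = v) (j : Fin n) :
    K j ⊓ (⨆ j' ∈ {j' : Fin n | j' ≠ j}, K j') = ⊥ := by
  rw [eq_bot_iff]
  rintro h ⟨h1, h2⟩
  have hle : (⨆ j' ∈ {j' : Fin n | j' ≠ j}, K j') ≤ L6_fix (W j.succ) := by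
    apply iSup₂_le
    intro j' hj' g hg v hv
    exact hfix j' g hg j.succ (fun e => hj' (Fin.succ_injective _ e).symm) v hv
  have h3 : ∀ v ∈ W j.succ, h v = v := hle h2
  have hall : ∀ i, W i ≤ LinearMap.ker ((h : V →ₗ[F] V) - LinearMap.id) := by
    intro i v hv
    rw [LinearMap.mem_ker, LinearMap.sub_apply, sub_eq_zero]
    by_cases hi : i = j.succ
    · subst hi
      exact h3 v hv
    · exact hfix j h h1 i hi v hv
  have htop : LinearMap.ker ((h : V →ₗ[F] V) - LinearMap.id) = ⊤ := by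
    rw [eq_top_iff, ← hW]
    exact iSup_le hall
  rw [Subgroup.mem_bot]
  ext v
  have : v ∈ LinearMap.ker ((h : V →ₗ[F] V) - LinearMap.id) := by rw [htop]; trivial
  rw [LinearMap.mem_ker, LinearMap.sub_apply, sub_eq_zero] at this
  exact this

end Cfsg.Agent.Lib.H57McL
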