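import Cfsg.Agent.Lib.H57SsAbExpRel

set_option autoImplicit false

/-! Project 5283, piece `AbExp`: consequence of `AbExpRel`. -/

namespace Cfsg.Agent.Lib.H57SsAbExp

open Cfsg.Agent.Lib.H57SsAbExpRel

theorem abelian_exp {G : Type*} [Group G] [Finite G] {p : ℕ} [Fact p.Prime] (hG : IsPGroup p G)
    (H : Subgroup (MulAut G)) (hH : (Nat.card ↥H).Coprime p) (D : ℕ → Subgroup G) (h0 : D 0 = ⊥)
    (N : ℕ) (hN : D N = ⊤) (hle : ∀ j, D j ≤ D (j + 1))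
    (hidx : ∀ j, (D j).relIndex (D (j + 1)) ≤ p) (hinv : ∀ h ∈ H, ∀ j, ∀ x ∈ D j, h x ∈ D j) :
    IsMulCommutative ↥H ∧ ∀ h ∈ H, h ^ (p - 1) = 1 := by
  obtain ⟨h1, h2⟩ := abelian_exp_rel hG H hH D h0 hle hidx hinv
  refine ⟨⟨⟨fun a b => ?_⟩⟩, fun h hh => ?_⟩
  · apply Subtype.ext
    apply MulEquiv.ext
    intro x
    exact h1 a a.2 b b.2 N x (by rw [hN]; trivial)
  · apply MulEquiv.ext
    intro x
    exact h2 h hh N x (by rw [hN]; trivial)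

end Cfsg.Agent.Lib.H57SsAbExp
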