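import Cfsg.Agent.Lib.Helper89Omega

set_option autoImplicit false

/-! Project 5283, piece `StabRel`: a `p'`-automorphism stabilising a chain fixes its members elementwise. -/

namespace Cfsg.Agent.Lib.H57SsStabRel

theorem fix_of_stab {G : Type*} [Group G] [Finite G] {p : ℕ} [Fact p.Prime] (hG : IsPGroup p G)
    (γ : MulAut G) (hγ : (orderOf γ).Coprime p) (D : ℕ → Subgroup G) (h0 : D 0 = ⊥)
    (hinv : ∀ j, ∀ x ∈ D j, γ x ∈ D j) (hst : ∀ j, ∀ x ∈ D (j + 1), x⁻¹ * γ x ∈ D j) :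
    ∀ j, ∀ x ∈ D j, γ x = x := by
  intro j x hx
  obtain ⟨k, hk⟩ := Cfsg.Agent.Lib.Helper86Group.stability_pow hG γ D h0 hinv hst j
  exact Cfsg.Agent.Lib.Helper89Omega.fix_of_pow_fix hγ (hk x hx)

/-- elements of a `p'`-group have order prime to `p` -/
theorem orderOf_coprime {A : Type*} [Group A] {p : ℕ} (H : Subgroup A)
    (hH : (Nat.card ↥H).Coprime p) {γ : A} (hγ : γ ∈ H) : (orderOf γ).Coprime p := by
  have h1 : orderOf (⟨γ, hγ⟩ : H) ∣ Nat.card H := orderOf_dvd_natCard _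
  rw [Subgroup.orderOf_mk] at h1
  exact Nat.Coprime.coprime_dvd_left h1 hH

end Cfsg.Agent.Lib.H57SsStabRel
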