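import Cfsg.Agent.Lib.H57SsPow
import Cfsg.Agent.Lib.H57SsStabRel

set_option autoImplicit false

/-! Project 5283, piece `AbExpRel` (pure group theory from `pow_step`, `fix_of_stab`). -/

namespace Cfsg.Agent.Lib.H57SsAbExpRel

open Cfsg.Agent.Lib.H57SsPow Cfsg.Agent.Lib.H57SsStabRel

theorem key {G : Type*} [Group G] [Finite G] {p : ℕ} [Fact p.Prime] (hG : IsPGroup p G)
    (H : Subgroup (MulAut G)) (X Y : Subgroup G) (hXY : X ≤ Y) (hidx : X.relIndex Y ≤ p)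
    (hX : ∀ h ∈ H, ∀ x ∈ X, h x ∈ X) (hY : ∀ h ∈ H, ∀ x ∈ Y, h x ∈ Y) :
    (∀ α ∈ H, ∀ β ∈ H, ∀ y ∈ Y, y⁻¹ * ((β * α)⁻¹ * (α * β)) y ∈ X) ∧
      (∀ α ∈ H, ∀ y ∈ Y, y⁻¹ * (α ^ (p - 1)) y ∈ X) := by
  have hp : p.Prime := Fact.out
  obtain ⟨n1, n2, -, n4⟩ := pow_step hG X Y hXY hidx
  have hN : (X.subgroupOf Y).Normal := by
    refine ⟨fun n hn' g => ?_⟩
    rw [Subgroup.mem_subgroupOf] at hn' ⊢
    exact n1 g g.2 n hn'
  have hπ : ∀ a b : ↥Y, (QuotientGroup.mk a : ↥Y ⧸ X.subgroupOf Y) = QuotientGroup.mk b ↔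
      (a : G)⁻¹ * b ∈ X := by
    intro a b
    rw [QuotientGroup.eq, Subgroup.mem_subgroupOf]
    rfl
  have hπ1 : ∀ a : ↥Y, (QuotientGroup.mk a : ↥Y ⧸ X.subgroupOf Y) = 1 ↔ (a : G) ∈ X := by
    intro a
    rw [QuotientGroup.eq_one_iff, Subgroup.mem_subgroupOf]
  have hact : ∀ α ∈ H, ∃ m : ℤ, ∀ y (hy : y ∈ Y) (hy' : α y ∈ Y),
      (QuotientGroup.mk ⟨α y, hy'⟩ : ↥Y ⧸ X.subgroupOf Y) = (QuotientGroup.mk ⟨y, hy⟩) ^ m := by
    intro α hα
    obtain ⟨m, hm⟩ := n4 α (hX α hα) (hY α hα)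
    refine ⟨m, fun y hy hy' => ?_⟩
    rw [← QuotientGroup.mk_zpow]
    symm
    rw [hπ]
    exact hm y hy
  have hpow : ∀ q : ↥Y ⧸ X.subgroupOf Y, q ^ p = 1 := by
    intro q
    obtain ⟨y, rfl⟩ := QuotientGroup.mk_surjective q
    rw [← QuotientGroup.mk_pow, hπ1]
    exact n2 y y.2
  constructor
  · intro α hα β hβ y hy
    obtain ⟨m, hm⟩ := hact α hα
    obtain ⟨m', hm'⟩ := hact β hβ
    have h1 : (β (α y))⁻¹ * α (β y) ∈ X := by
      have hαy := hY α hα y hy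
      have hβy := hY β hβ y hy
      have e1 := hm (β y) hβy (hY α hα _ hβy)
      have e2 := hm' (α y) hαy (hY β hβ _ hαy)
      rw [hm' y hy hβy] at e1
      rw [hm y hy hαy] at e2
      have e3 : (QuotientGroup.mk ⟨β (α y), hY β hβ _ hαy⟩ : ↥Y ⧸ X.subgroupOf Y) =
          QuotientGroup.mk ⟨α (β y), hY α hα _ hβy⟩ := by
        rw [e1, e2, ← zpow_mul, ← zpow_mul, mul_comm]
      exact (hπ _ _).mp e3
    have h2 := hX (β * α)⁻¹ (H.inv_mem (H.mul_mem hβ hα)) _ h1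
    have e : (β * α)⁻¹ ((β (α y))⁻¹ * α (β y)) = y⁻¹ * ((β * α)⁻¹ * (α * β)) y := by
      rw [map_mul, map_inv]
      have : (β * α)⁻¹ (β (α y)) = y := by
        have e0 : β (α y) = (β * α) y := rfl
        rw [e0]
        exact MulEquiv.symm_apply_apply (β * α) y
      rw [this]
      rfl
    rw [e] at h2
    exact h2
  · intro α hα y hy
    obtain ⟨m, hm⟩ := hact α hα
    have hiter : ∀ e : ℕ, ∀ (hy' : (α ^ e) y ∈ Y),
        (QuotientGroup.mk ⟨(α ^ e) y, hy'⟩ : ↥Y ⧸ X.subgroupOf Y) =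
          (QuotientGroup.mk ⟨y, hy⟩) ^ (m ^ e) := by
      intro e
      induction e with
      | zero =>
        intro hy'
        simp
      | succ e ih =>
        intro hy'
        have hye : (α ^ e) y ∈ Y := hY _ (H.pow_mem hα e) y hy
        have e1 : (α ^ (e + 1)) y = α ((α ^ e) y) := by
          rw [pow_succ', MulAut.mul_apply]
        have e2 := hm _ hye (hY α hα _ hye)
        rw [ih hye, ← zpow_mul, ← pow_succ] at e2
        rw [← e2]
        congr 1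
        exact Subtype.ext e1
    have hyp : (α ^ (p - 1)) y ∈ Y := hY _ (H.pow_mem hα _) y hy
    have h1 := hiter (p - 1) hyp
    have h2 : (QuotientGroup.mk ⟨y, hy⟩ : ↥Y ⧸ X.subgroupOf Y) ^ (m ^ (p - 1)) =
        QuotientGroup.mk ⟨y, hy⟩ := by
      by_cases hpm : (p : ℤ) ∣ m
      · -- then everything is trivial
        have hall : ∀ z (hz : z ∈ Y), z ∈ X := by
          intro z hz
          have e1 := hm z hz (hY α hα z hz)
          obtain ⟨t, ht⟩ := hpm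
          rw [ht, zpow_mul, zpow_natCast, hpow, one_zpow, hπ1] at e1
          have e2 := hX α⁻¹ (H.inv_mem hα) _ e1
          simpa using e2
        have : (QuotientGroup.mk ⟨y, hy⟩ : ↥Y ⧸ X.subgroupOf Y) = 1 := (hπ1 _).mpr (hall y hy)
        rw [this, one_zpow]
      · have hcop : IsCoprime m (p : ℤ) := by
          rw [isCoprime_comm]
          exact (Nat.prime_iff_prime_int.mp hp).coprime_iff_not_dvd.mpr hpm
        have h3 := Int.ModEq.pow_card_sub_one_eq_one hp hcop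
        obtain ⟨t, ht⟩ := h3.symm.dvd
        have h4 : m ^ (p - 1) = 1 + p * t := by linarith
        rw [h4, zpow_add, zpow_one, zpow_mul, zpow_natCast, hpow, one_zpow, mul_one]
    rw [h2] at h1
    exact (hπ _ _).mp h1.symm

theorem abelian_exp_rel {G : Type*} [Group G] [Finite G] {p : ℕ} [Fact p.Prime] (hG : IsPGroup p G)
    (H : Subgroup (MulAut G)) (hH : (Nat.card ↥H).Coprime p) (D : ℕ → Subgroup G) (h0 : D 0 = ⊥)
    (hle : ∀ j, D j ≤ D (j + 1))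
    (hidx : ∀ j, (D j).relIndex (D (j + 1)) ≤ p) (hinv : ∀ h ∈ H, ∀ j, ∀ x ∈ D j, h x ∈ D j) :
    (∀ a ∈ H, ∀ b ∈ H, ∀ j, ∀ x ∈ D j, a (b x) = b (a x)) ∧
      ∀ h ∈ H, ∀ j, ∀ x ∈ D j, (h ^ (p - 1)) x = x := by
  have hk := fun j => key hG H (D j) (D (j + 1)) (hle j) (hidx j) (fun h hh => hinv h hh j)
    (fun h hh => hinv h hh (j + 1))
  constructor
  · intro a ha b hb j x hx
    have hmem : (b * a)⁻¹ * (a * b) ∈ H :=
      H.mul_mem (H.inv_mem (H.mul_mem hb ha)) (H.mul_mem ha hb)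
    have h1 := fix_of_stab hG ((b * a)⁻¹ * (a * b)) (orderOf_coprime H hH hmem) D h0
      (fun j x hx => hinv _ hmem j x hx) (fun j x hx => (hk j).1 a ha b hb x hx) j x hx
    have h2 : (b * a) (((b * a)⁻¹ * (a * b)) x) = (b * a) x := by rw [h1]
    have h3 : (b * a) (((b * a)⁻¹ * (a * b)) x) = (a * b) x :=
      MulEquiv.apply_symm_apply (b * a) ((a * b) x)
    rw [h3] at h2
    exact h2
  · intro h hh j x hx
    have hmem : h ^ (p - 1) ∈ H := H.pow_mem hh _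
    exact fix_of_stab hG (h ^ (p - 1)) (orderOf_coprime H hH hmem) D h0
      (fun j x hx => hinv _ hmem j x hx) (fun j x hx => (hk j).2 h hh x hx) j x hx

end Cfsg.Agent.Lib.H57SsAbExpRel
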