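import Cfsg.Agent.Lib.H57SsDefs

set_option autoImplicit false

/-! Project 5283, piece `BadOdd` (pure). -/

namespace Cfsg.Agent.Lib.H57SsBadOdd

open Cfsg.Agent.Lib.H57SsDefs

variable {C H₀ : Type*} [CommGroup C] [Group H₀]

def T1 (h : MulAut ((C × C) × H₀)) : Prop :=
  ∃ ε δ : ℤˣ, ∀ x y z, h ((x, y), z) = ((x ^ (ε : ℤ), y ^ (δ : ℤ)), z)

def T2 (h : MulAut ((C × C) × H₀)) : Prop :=
  ∃ ε δ : ℤˣ, ∀ x y z, h ((x, y), z) = ((y ^ (ε : ℤ), x ^ (δ : ℤ)), z)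

theorem t11 {h h' : MulAut ((C × C) × H₀)} (a : T1 h) (b : T1 h') : T1 (h * h') := by
  obtain ⟨ε, δ, a⟩ := a
  obtain ⟨ε', δ', b⟩ := b
  refine ⟨ε' * ε, δ' * δ, fun x y z => ?_⟩
  rw [MulAut.mul_apply, b, a, ← zpow_mul, ← zpow_mul, Units.val_mul, Units.val_mul]

theorem t12 {h h' : MulAut ((C × C) × H₀)} (a : T1 h) (b : T2 h') : T2 (h * h') := by
  obtain ⟨ε, δ, a⟩ := a
  obtain ⟨ε', δ', b⟩ := b
  refine ⟨ε' * ε, δ' * δ, fun x y z => ?_⟩
  rw [MulAut.mul_apply, b, a, ← zpow_mul, ← zpow_mul, Units.val_mul, Units.val_mul]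

theorem t21 {h h' : MulAut ((C × C) × H₀)} (a : T2 h) (b : T1 h') : T2 (h * h') := by
  obtain ⟨ε, δ, a⟩ := a
  obtain ⟨ε', δ', b⟩ := b
  refine ⟨δ' * ε, ε' * δ, fun x y z => ?_⟩
  rw [MulAut.mul_apply, b, a, ← zpow_mul, ← zpow_mul, Units.val_mul, Units.val_mul]

theorem t22 {h h' : MulAut ((C × C) × H₀)} (a : T2 h) (b : T2 h') : T1 (h * h') := by
  obtain ⟨ε, δ, a⟩ := a
  obtain ⟨ε', δ', b⟩ := b
  refine ⟨δ' * ε, ε' * δ, fun x y z => ?_⟩
  rw [MulAut.mul_apply, b, a, ← zpow_mul, ← zpow_mul, Units.val_mul, Units.val_mul]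

theorem t1_sq {h : MulAut ((C × C) × H₀)} (a : T1 h) : h * h = 1 := by
  obtain ⟨ε, δ, a⟩ := a
  ext ⟨⟨x, y⟩, z⟩ : 1
  rw [MulAut.mul_apply, a, a, ← zpow_mul, ← zpow_mul, ← Units.val_mul, ← Units.val_mul,
    Int.units_mul_self, Int.units_mul_self]
  simp

theorem mono_mul {h h' : MulAut ((C × C) × H₀)} (a : T1 h ∨ T2 h) (b : T1 h' ∨ T2 h') :
    T1 (h * h') ∨ T2 (h * h') := by
  rcases a with a | a <;> rcases b with b | b
  · exact Or.inl (t11 a b)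
  · exact Or.inr (t12 a b)
  · exact Or.inr (t21 a b)
  · exact Or.inl (t22 a b)

theorem mono_pow4 {h : MulAut ((C × C) × H₀)} (a : T1 h ∨ T2 h) : h ^ 4 = 1 := by
  have h1 : T1 (h * h) := by
    rcases a with a | a
    · exact t11 a a
    · exact t22 a a
  have h2 := t1_sq h1
  calc h ^ 4 = (h * h) * (h * h) := by simp only [pow_succ, pow_zero, one_mul, mul_assoc]
    _ = 1 := h2

theorem bad_odd {C H₀ : Type*} [CommGroup C] [Group H₀] [Finite C] [Finite H₀] (p : ℕ)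
    (hp : Odd p) (c : C) (hc : c ^ 2 ≠ 1) : ¬ PCond p ((C × C) × H₀) := by
  intro hP
  let M : Subgroup (MulAut ((C × C) × H₀)) :=
    { carrier := {h | T1 h ∨ T2 h}
      one_mem' := Or.inl ⟨1, 1, fun x y z => by simp⟩
      mul_mem' := fun a b => mono_mul a b
      inv_mem' := by
        intro h a
        have h4 := mono_pow4 a
        have e : h⁻¹ = h * h * h := by
          rw [inv_eq_iff_mul_eq_one]
          calc h * (h * h * h) = h ^ 4 := by simp only [pow_succ, pow_zero, one_mul, mul_assoc]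
            _ = 1 := h4
        show T1 h⁻¹ ∨ T2 h⁻¹
        rw [e]
        exact mono_mul (mono_mul a a) a }
  have hM2 : IsPGroup 2 ↥M := by
    intro h
    refine ⟨2, Subtype.ext ?_⟩
    have := mono_pow4 h.2
    simpa using this
  have : Fact (Nat.Prime 2) := ⟨Nat.prime_two⟩
  obtain ⟨k, hk⟩ := IsPGroup.iff_card.mp hM2
  have hcop : (Nat.card ↥M).Coprime p := by
    rw [hk]
    exact Nat.Coprime.pow_left k (Nat.coprime_two_left.mpr hp)
  obtain ⟨hcomm, -⟩ := hP M hcop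
  let s : MulAut ((C × C) × H₀) := MulEquiv.prodCongr MulEquiv.prodComm (MulEquiv.refl H₀)
  let t : MulAut ((C × C) × H₀) :=
    MulEquiv.prodCongr (MulEquiv.prodCongr (MulEquiv.inv C) (MulEquiv.refl C)) (MulEquiv.refl H₀)
  have hs : s ∈ M := Or.inr ⟨1, 1, fun x y z => by
    show ((y, x), z) = _
    simp⟩
  have ht : t ∈ M := Or.inl ⟨-1, 1, fun x y z => by
    show ((x⁻¹, y), z) = _
    simp⟩
  have h1 := hcomm.is_comm.comm ⟨s, hs⟩ ⟨t, ht⟩
  have h2 : s * t = t * s := congrArg Subtype.val h1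
  have h3 := DFunLike.congr_fun h2 ((1, c), 1)
  have h4 : (((c, (1 : C)⁻¹), (1 : H₀)) : (C × C) × H₀) = ((c⁻¹, 1), 1) := h3
  have h5 : c = c⁻¹ := congrArg (fun w => w.1.1) h4
  apply hc
  rw [pow_two]
  nth_rewrite 1 [h5]
  exact inv_mul_cancel c

end Cfsg.Agent.Lib.H57SsBadOdd
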