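import Cfsg.Agent.Lib.H57SsDefs

set_option autoImplicit false

/-! Project 5283, piece `BadTwo` (45m, pure). -/

namespace Cfsg.Agent.Lib.H57SsBadTwo

open Cfsg.Agent.Lib.H57SsDefs

/-- the automorphism of order 3 -/
def sig (C H₀ : Type*) [CommGroup C] [Group H₀] : MulAut ((C × C) × H₀) where
  toFun := fun w => ((w.1.2⁻¹, w.1.1 * w.1.2⁻¹), w.2)
  invFun := fun w => ((w.1.1⁻¹ * w.1.2, w.1.1⁻¹), w.2)
  left_inv := by
    rintro ⟨⟨x, y⟩, z⟩
    simp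
  right_inv := by
    rintro ⟨⟨x, y⟩, z⟩
    simp
  map_mul' := by
    rintro ⟨⟨x, y⟩, z⟩ ⟨⟨x', y'⟩, z'⟩
    simp only [Prod.mk_mul_mk, Prod.mk.injEq, mul_inv_rev, and_true]
    constructor
    · exact mul_comm _ _
    · rw [mul_comm y'⁻¹ y⁻¹, mul_mul_mul_comm]

theorem sig_apply {C H₀ : Type*} [CommGroup C] [Group H₀] (x y : C) (z : H₀) :
    sig C H₀ ((x, y), z) = ((y⁻¹, x * y⁻¹), z) := rfl

theorem sig_cube (C H₀ : Type*) [CommGroup C] [Group H₀] : sig C H₀ ^ 3 = 1 := by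
  ext1 ⟨⟨x, y⟩, z⟩
  rw [pow_succ, pow_two, MulAut.mul_apply, MulAut.mul_apply, sig_apply, sig_apply, sig_apply,
    MulAut.one_apply]
  simp

/-- `σ ((x, y), z) = ((y⁻¹, x * y⁻¹), z)` is an automorphism with `σ ^ 3 = 1` (inverse `σ²((x,y),z) = ((x⁻¹ * y, x⁻¹), z)`) and `σ ((c,1),1) = ((1,c),1) ≠ ((c,1),1)`.
`H = zpowers σ` has `Nat.card H = orderOf σ ∣ 3` (`Nat.card_zpowers`), coprime to `2`; `PCond` gives `σ ^ (2 - 1) = 1`. -/
theorem bad_two {C H₀ : Type*} [CommGroup C] [Group H₀] (c : C) (hc : c ≠ 1) :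
    ¬ PCond 2 ((C × C) × H₀) := by
  intro h
  have hd : orderOf (sig C H₀) ∣ 3 := orderOf_dvd_of_pow_eq_one (sig_cube C H₀)
  have hcop : (Nat.card (Subgroup.zpowers (sig C H₀))).Coprime 2 := by
    rw [Nat.card_zpowers]
    exact Nat.Coprime.coprime_dvd_left hd (by norm_num)
  have h1 := (h _ hcop).2 _ (Subgroup.mem_zpowers (sig C H₀))
  have h2 : sig C H₀ = 1 := by simpa using h1
  have h3 : sig C H₀ ((c, 1), 1) = ((c, 1), 1) := by rw [h2]; rfl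
  rw [sig_apply] at h3
  simp only [inv_one, mul_one, Prod.mk.injEq, and_true] at h3
  exact hc h3.2

end Cfsg.Agent.Lib.H57SsBadTwo
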