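import Cfsg.Agent.Lib.H57SsDefs

set_option autoImplicit false

/-! Project 5283, piece `Build` (30m). -/

namespace Cfsg.Agent.Lib.H57SsBuild

open Cfsg Cfsg.FusionSystem Cfsg.Agent.Lib.H57SsDefs

variable {Ω : Type*} [Group Ω] {S : Subgroup Ω}

theorem card_lt_of_lt [Finite S] {X Y : Subgroup Ω} (hXY : X < Y) (hY : Y ≤ S) :
    Nat.card X < Nat.card Y ∧ Nat.card Y ≤ Nat.card S := by
  haveI : Finite Y := Finite.of_injective (Subgroup.inclusion hY) (Subgroup.inclusion_injective hY)
  refine ⟨?_, Subgroup.card_le_of_le hY⟩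
  by_contra hcon
  exact hXY.ne (Subgroup.eq_of_le_of_card_ge hXY.le (by omega))

/-- strong induction on `Nat.card S - Nat.card X` (`X ≤ S` is the first component of `StronglyClosed`): `X = S`: `refl`; otherwise `X < X ⊔ zpowers x ≤ S`,
`Relation.ReflTransGen.head`. -/
theorem build [Finite S] (F : FusionSystem S)
    (step : ∀ X : Subgroup Ω, F.StronglyClosed X → X ≠ S →
      ∃ x ∈ S, x ∉ X ∧ F.StronglyClosed (X ⊔ Subgroup.zpowers x)) :
    ∀ X : Subgroup Ω, F.StronglyClosed X → Relation.ReflTransGen (R1 F) X S := by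
  intro X hX
  induction hn : Nat.card S - Nat.card X using Nat.strong_induction_on generalizing X with
  | _ n ih =>
    by_cases hXS : X = S
    · rw [hXS]
    · obtain ⟨x, hxS, hxX, hcl⟩ := step X hX hXS
      have hlt : X < X ⊔ Subgroup.zpowers x := by
        refine lt_of_le_of_ne le_sup_left ?_
        intro h
        apply hxX
        rw [h]
        exact Subgroup.mem_sup_right (Subgroup.mem_zpowers x)
      obtain ⟨h1, h2⟩ := card_lt_of_lt hlt hcl.1
      exact Relation.ReflTransGen.head ⟨hX, hcl, le_sup_left, x, hxS, rfl⟩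
        (ih _ (by omega) _ hcl rfl)

end Cfsg.Agent.Lib.H57SsBuild
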