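import Mathlib

set_option autoImplicit false

/-! Project 5283, piece `Chain` (30m, PURE MATHLIB, generic): `Relation.ReflTransGen` versus chains indexed by `Fin (n+1)` / `ℕ`. -/

namespace Cfsg.Agent.Lib.H57SsChain

/-- from `fin_of_rtg`: `D j = c ⟨min j n, _⟩`. -/
theorem nat_of_rtg {α : Type*} {R : α → α → Prop} {a b : α} (h : Relation.ReflTransGen R a b) :
    ∃ (D : ℕ → α) (N : ℕ), D 0 = a ∧ (∀ j, N ≤ j → D j = b) ∧ ∀ j, j < N → R (D j) (D (j + 1)) := by
  induction h with
  | refl => exact ⟨fun _ => a, 0, rfl, fun _ _ => rfl, fun j hj => absurd hj (Nat.not_lt_zero j)⟩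
  | @tail b c' hab hbc ih =>
    obtain ⟨D, N, h0, hl, hs⟩ := ih
    refine ⟨fun j => if j ≤ N then D j else c', N + 1, ?_, ?_, ?_⟩
    · simp [h0]
    · intro j hj
      have : ¬ j ≤ N := by omega
      simp [this]
    · intro j hj
      by_cases hjN : j < N
      · have h1 : j ≤ N := by omega
        have h2 : j + 1 ≤ N := by omega
        simp only [h1, h2, if_true]
        exact hs j hjN
      · have h1 : j = N := by omega
        subst h1
        have h2 : ¬ j + 1 ≤ j := by omega
        simp only [le_refl, h2, if_true, if_false]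
        rw [hl j le_rfl]
        exact hbc

/-- induction on `h` (`Relation.ReflTransGen.refl` : n = 0; `tail` : `Fin.snoc`). -/
theorem fin_of_rtg {α : Type*} {R : α → α → Prop} {a b : α} (h : Relation.ReflTransGen R a b) :
    ∃ (n : ℕ) (c : Fin (n + 1) → α), c 0 = a ∧ c (Fin.last n) = b ∧
      ∀ i : Fin n, R (c i.castSucc) (c i.succ) := by
  obtain ⟨D, N, h0, hl, hs⟩ := nat_of_rtg h
  refine ⟨N, fun i => D i.val, h0, hl N le_rfl, ?_⟩
  intro i
  exact hs i.val i.2

/-- induction on `n` (or: prove `ReflTransGen R (c 0) (c i)` by `Fin.induction`). -/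
theorem rtg_of_fin {α : Type*} {R : α → α → Prop} (n : ℕ) (c : Fin (n + 1) → α)
    (h : ∀ i : Fin n, R (c i.castSucc) (c i.succ)) :
    Relation.ReflTransGen R (c 0) (c (Fin.last n)) := by
  have key : ∀ i : ℕ, ∀ hi : i < n + 1, Relation.ReflTransGen R (c 0) (c ⟨i, hi⟩) := by
    intro i
    induction i with
    | zero => intro hi; exact Relation.ReflTransGen.refl
    | succ i ih =>
      intro hi
      exact Relation.ReflTransGen.tail (ih (by omega)) (h ⟨i, by omega⟩)
  exact key n (by omega)

end Cfsg.Agent.Lib.H57SsChain
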