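import Mathlib

set_option autoImplicit false

/-! Project 5283, piece `Cyc` (45m, PURE MATHLIB: the cyclic group `Z/p^e`). -/

namespace Cfsg.Agent.Lib.H57SsCyc

theorem pow_eq (n : ℕ) (y : Multiplicative (ZMod n)) (k : ℕ) :
    y ^ k = Multiplicative.ofAdd ((k : ZMod n) * Multiplicative.toAdd y) := by
  rw [← nsmul_eq_mul]
  rfl

/-- (→) if `e ≤ j` then `y ^ (p ^ j) = 1` (the group has order `p ^ e`).  (←) if `j < e` and `p • a = 0` in `ZMod (p ^ e)` then `p ^ (e - 1) ∣ a.val`, so `a = p ^ j • b`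
with `b = p ^ (e - 1 - j) * (a.val / p ^ (e - 1))`; if `e ≤ j`, `c = 1 = 1 ^ _`. -/
theorem cyc_iff {p : ℕ} [Fact p.Prime] (e j : ℕ) (c : Multiplicative (ZMod (p ^ e))) :
    (c ^ p = 1 ∧ ∃ y, y ^ (p ^ j) = c) ↔ (c ^ p = 1 ∧ (e ≤ j → c = 1)) := by
  have hp : p.Prime := Fact.out
  haveI : NeZero (p ^ e) := ⟨(pow_pos hp.pos e).ne'⟩
  constructor
  · rintro ⟨h1, y, rfl⟩
    refine ⟨h1, fun hej => ?_⟩
    rw [pow_eq]
    have : ((p ^ j : ℕ) : ZMod (p ^ e)) = 0 := by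
      rw [ZMod.natCast_eq_zero_iff]
      exact pow_dvd_pow p hej
    rw [this, zero_mul]
    rfl
  · rintro ⟨h1, h2⟩
    refine ⟨h1, ?_⟩
    rcases Nat.lt_or_ge j e with hje | hej
    · rw [pow_eq] at h1
      have h3 : (p : ZMod (p ^ e)) * Multiplicative.toAdd c = 0 := h1
      have h4 : ((p * (Multiplicative.toAdd c).val : ℕ) : ZMod (p ^ e)) = 0 := by
        push_cast
        rw [ZMod.natCast_zmod_val]
        exact h3
      rw [ZMod.natCast_eq_zero_iff] at h4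
      have he : p ^ e = p * p ^ (e - 1) := by
        rw [← pow_succ', Nat.sub_add_cancel (by omega)]
      have h5 : p * p ^ (e - 1) ∣ p * (Multiplicative.toAdd c).val := he ▸ h4
      obtain ⟨m, hm⟩ := Nat.dvd_of_mul_dvd_mul_left hp.pos h5
      refine ⟨Multiplicative.ofAdd ((p ^ (e - 1 - j) * m : ℕ) : ZMod (p ^ e)), ?_⟩
      rw [pow_eq, toAdd_ofAdd, ← Nat.cast_mul, ← mul_assoc, ← pow_add]
      have : j + (e - 1 - j) = e - 1 := by omega
      rw [this, ← hm, ZMod.natCast_zmod_val]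
      rfl
    · exact ⟨1, by rw [one_pow, h2 hej]⟩

/-- `IsCyclic.card_pow_eq_one_le` (the instance `IsCyclic (Multiplicative (ZMod n))` exists). -/
theorem card_omega {p : ℕ} [Fact p.Prime] (e : ℕ) :
    Nat.card {c : Multiplicative (ZMod (p ^ e)) // c ^ p = 1} ≤ p := by
  classical
  have hp : p.Prime := Fact.out
  haveI : NeZero (p ^ e) := ⟨(pow_pos hp.pos e).ne'⟩
  rw [Nat.card_eq_fintype_card, Fintype.card_subtype]
  exact IsCyclic.card_pow_eq_one_le hp.pos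

end Cfsg.Agent.Lib.H57SsCyc
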