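import Mathlib
import Cfsg.Prelude.Def_FusionSystem

set_option autoImplicit false

/-! Project 5283 (rows S5283, S5284): vocabulary (helper57). -/

namespace Cfsg.Agent.Lib.H57SsDefs

open Cfsg

variable {Ω : Type*} [Group Ω] {S : Subgroup Ω}

/-- a cyclic step between strongly closed subgroups -/
def R1 (F : FusionSystem S) (X Y : Subgroup Ω) : Prop :=
  F.StronglyClosed X ∧ F.StronglyClosed Y ∧ X ≤ Y ∧ ∃ x ∈ S, Y = X ⊔ Subgroup.zpowers x

/-- a step of index at most `p` between strongly closed subgroups -/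
def R3 (F : FusionSystem S) (p : ℕ) (X Y : Subgroup Ω) : Prop :=
  F.StronglyClosed X ∧ F.StronglyClosed Y ∧ X ≤ Y ∧ X.relIndex Y ≤ p

/-- the condition on `p'`-groups of automorphisms -/
def PCond (p : ℕ) (G : Type*) [Group G] : Prop :=
  ∀ H : Subgroup (MulAut G), (Nat.card ↥H).Coprime p → IsMulCommutative ↥H ∧ ∀ h ∈ H, h ^ (p - 1) = 1

end Cfsg.Agent.Lib.H57SsDefs
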