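import Cfsg.Agent.Lib.H57SsDefs

set_option autoImplicit false

/-! Project 5283, second wave (row S5284): vocabulary (helper57). -/

namespace Cfsg.Agent.Lib.H57SsDefs2

/-- `Ω₁(G) ∩ ℧^j(G)` for a commutative group `G` -/
def W (p : ℕ) (G : Type*) [CommGroup G] (j : ℕ) : Subgroup G where
  carrier := {x | x ^ p = 1 ∧ ∃ y, y ^ (p ^ j) = x}
  one_mem' := ⟨one_pow _, 1, one_pow _⟩
  mul_mem' := by
    rintro a b ⟨ha, y, rfl⟩ ⟨hb, z, rfl⟩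
    exact ⟨by rw [mul_pow, ha, hb, one_mul], y * z, mul_pow _ _ _⟩
  inv_mem' := by
    rintro a ⟨ha, y, rfl⟩
    exact ⟨by rw [inv_pow, ha, inv_one], y⁻¹, inv_pow _ _⟩

theorem mem_W {p : ℕ} {G : Type*} [CommGroup G] {j : ℕ} {x : G} :
    x ∈ W p G j ↔ x ^ p = 1 ∧ ∃ y, y ^ (p ^ j) = x := Iff.rfl

end Cfsg.Agent.Lib.H57SsDefs2
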