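import Mathlib

set_option autoImplicit false

/-! Project 5283, piece `Eig` (60m, PURE MATHLIB linear algebra). -/

namespace Cfsg.Agent.Lib.H57SsEig

theorem prod_X_sub_C_zmod (p : ℕ) [Fact p.Prime] :
    ∏ a : ZMod p, (Polynomial.X - Polynomial.C a) =
      (Polynomial.X ^ p - Polynomial.X : Polynomial (ZMod p)) := by
  have hp1 : 1 < p := (Fact.out : p.Prime).one_lt
  have hroots : (Polynomial.X ^ p - Polynomial.X : Polynomial (ZMod p)).roots = Finset.univ.val := by
    have := FiniteField.roots_X_pow_card_sub_X (ZMod p)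
    rwa [ZMod.card] at this
  have hmonic : (Polynomial.X ^ p - Polynomial.X : Polynomial (ZMod p)).Monic := by
    apply Polynomial.monic_X_pow_sub
    rw [Polynomial.degree_X]
    exact_mod_cast hp1
  have hdeg := FiniteField.X_pow_card_sub_X_natDegree_eq (ZMod p) hp1
  have := Polynomial.prod_multiset_X_sub_C_of_monic_of_roots_card_eq hmonic
    (by rw [hroots, hdeg]; simp [ZMod.card])
  rw [hroots] at this
  exact this

/-- `∏_{a : ZMod p} (X - C a) = X ^ p - X` (`FiniteField.X_pow_card_sub_X_eq_prod`-type lemma, `ZMod.card`), so `∏_a (f - a • 1) = f ^ p - f = 0`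
(`Polynomial.aeval`).  If `f` had no eigenvector in `W` every `f - a • 1` would be injective on `W` and map `W` to `W`, so would the product. -/
theorem exists_eigen {p : ℕ} [Fact p.Prime] {V : Type*} [AddCommGroup V] [Module (ZMod p) V]
    (f : Module.End (ZMod p) V) (hf : f ^ p = f) (W : Submodule (ZMod p) V) (hW : W ≠ ⊥)
    (hfW : ∀ w ∈ W, f w ∈ W) : ∃ a : ZMod p, ∃ v ∈ W, v ≠ 0 ∧ f v = a • v := by
  by_contra hcon
  push Not at hcon
  obtain ⟨w, hwW, hw0⟩ := Submodule.exists_mem_ne_zero_of_ne_bot hW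
  have key : ∀ S : Finset (ZMod p),
      (Polynomial.aeval f (∏ a ∈ S, (Polynomial.X - Polynomial.C a))) w ∈ W ∧
      (Polynomial.aeval f (∏ a ∈ S, (Polynomial.X - Polynomial.C a))) w ≠ 0 := by
    intro S
    induction S using Finset.induction_on with
    | empty => simpa using ⟨hwW, hw0⟩
    | insert a S ha ih =>
      rw [Finset.prod_insert ha, map_mul]
      obtain ⟨h1, h2⟩ := ih
      obtain ⟨u, hu⟩ : ∃ u, u = (Polynomial.aeval f (∏ a ∈ S, (Polynomial.X - Polynomial.C a))) w :=
        ⟨_, rfl⟩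
      rw [← hu] at h1 h2
      have h3 : (Polynomial.aeval f (Polynomial.X - Polynomial.C a) *
          Polynomial.aeval f (∏ a ∈ S, (Polynomial.X - Polynomial.C a))) w = f u - a • u := by
        rw [Module.End.mul_apply, ← hu]
        simp [Module.algebraMap_end_apply]
      rw [h3]
      exact ⟨W.sub_mem (hfW u h1) (W.smul_mem a h1), sub_ne_zero.2 (hcon a u h1 h2)⟩
  have h4 := (key Finset.univ).2
  rw [prod_X_sub_C_zmod] at h4
  apply h4
  simp [hf]

theorem exists_common_aux {p : ℕ} [Fact p.Prime] {V : Type*} [AddCommGroup V]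
    [Module (ZMod p) V] [Nontrivial V] (T : Set (Module.End (ZMod p) V)) (hfin : T.Finite) :
    (∀ f ∈ T, ∀ g ∈ T, f * g = g * f) → (∀ f ∈ T, f ^ p = f) →
    ∃ W : Submodule (ZMod p) V, W ≠ ⊥ ∧
      (∀ g : Module.End (ZMod p) V, (∀ f ∈ T, f * g = g * f) → ∀ w ∈ W, g w ∈ W) ∧
      ∀ f ∈ T, ∃ a : ZMod p, ∀ w ∈ W, f w = a • w := by
  induction T, hfin using Set.Finite.induction_on with
  | empty =>
    intro _ _
    exact ⟨⊤, top_ne_bot, fun _ _ _ _ => Submodule.mem_top, fun f hf => absurd hf (by simp)⟩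
  | @insert f T hfT hT ih =>
    intro hc hp
    obtain ⟨W, hW, hinv, hsc⟩ := ih
      (fun f' hf' g hg => hc f' (Set.mem_insert_of_mem _ hf') g (Set.mem_insert_of_mem _ hg))
      (fun f' hf' => hp f' (Set.mem_insert_of_mem _ hf'))
    have hfW : ∀ w ∈ W, f w ∈ W :=
      hinv f (fun f' hf' => hc f' (Set.mem_insert_of_mem _ hf') f (Set.mem_insert _ _))
    obtain ⟨a, v, hvW, hv0, hfv⟩ := exists_eigen f (hp f (Set.mem_insert _ _)) W hW hfW
    refine ⟨W ⊓ LinearMap.ker (f - a • (1 : Module.End (ZMod p) V)), ?_, ?_, ?_⟩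
    · intro hbot
      have : v ∈ W ⊓ LinearMap.ker (f - a • (1 : Module.End (ZMod p) V)) := by
        refine Submodule.mem_inf.2 ⟨hvW, ?_⟩
        rw [LinearMap.mem_ker]
        simp [hfv]
      rw [hbot] at this
      exact hv0 ((Submodule.mem_bot _).1 this)
    · intro g hg w hw
      rw [Submodule.mem_inf] at hw
      refine Submodule.mem_inf.2 ⟨hinv g (fun f' hf' => hg f' (Set.mem_insert_of_mem _ hf')) w hw.1, ?_⟩
      have h1 := hw.2
      rw [LinearMap.mem_ker] at h1 ⊢
      have h2 : f w = a • w := by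
        have : f w - a • w = 0 := by simpa using h1
        exact sub_eq_zero.1 this
      have h3 : f (g w) = g (f w) := by
        have := congrArg (fun φ : Module.End (ZMod p) V => φ w) (hg f (Set.mem_insert _ _))
        simpa [Module.End.mul_apply] using this
      simp [h3, h2]
    · intro f' hf'
      rcases Set.mem_insert_iff.1 hf' with rfl | hf'
      · refine ⟨a, fun w hw => ?_⟩
        have h1 := (Submodule.mem_inf.1 hw).2
        rw [LinearMap.mem_ker] at h1
        have : f' w - a • w = 0 := by simpa using h1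
        exact sub_eq_zero.1 this
      · obtain ⟨a', ha'⟩ := hsc f' hf'
        exact ⟨a', fun w hw => ha' w (Submodule.mem_inf.1 hw).1⟩

/-- induction on the finite set `T` (`Set.Finite.induction_on`), statement generalised to: there is a submodule `W ≠ ⊥`, invariant under every endomorphism commuting with all
elements of `T`, on which each `f ∈ T` is a scalar.  Step: `W' = W ⊓ ker (f - a • 1)` with `a` from `exists_eigen`. -/
theorem exists_common_eigen {p : ℕ} [Fact p.Prime] {V : Type*} [AddCommGroup V]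
    [Module (ZMod p) V] [Nontrivial V] (T : Set (Module.End (ZMod p) V)) (hfin : T.Finite)
    (hc : ∀ f ∈ T, ∀ g ∈ T, f * g = g * f) (hp : ∀ f ∈ T, f ^ p = f) :
    ∃ v : V, v ≠ 0 ∧ ∀ f ∈ T, ∃ a : ZMod p, f v = a • v := by
  obtain ⟨W, hW, -, hsc⟩ := exists_common_aux T hfin hc hp
  obtain ⟨w, hwW, hw0⟩ := Submodule.exists_mem_ne_zero_of_ne_bot hW
  exact ⟨w, hw0, fun f hf => (hsc f hf).imp fun a ha => ha w hwW⟩

end Cfsg.Agent.Lib.H57SsEig
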