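import Cfsg.Agent.Lib.H57SsEig

set_option autoImplicit false

/-! Project 5283, piece `EigG` (60m, translation of `Eig` to multiplicative groups). -/

namespace Cfsg.Agent.Lib.H57SsEigG

open Cfsg.Agent.Lib.H57SsEig

theorem eigen_group_aux {p : ℕ} [Fact p.Prime] {Q : Type*} [CommGroup Q] [Nontrivial Q]
    [Module (ZMod p) (Additive Q)] (T : Set (Q →* Q)) (hfin : T.Finite)
    (hc : ∀ f ∈ T, ∀ g ∈ T, ∀ q, f (g q) = g (f q)) (hp : ∀ f ∈ T, ∀ q, (f^[p]) q = f q) :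
    ∃ q : Q, q ≠ 1 ∧ ∀ f ∈ T, ∃ k : ℕ, f q = q ^ k := by
  obtain ⟨L, hL⟩ : ∃ L : (Q →* Q) → Module.End (ZMod p) (Additive Q),
      L = fun f => (MonoidHom.toAdditive f).toZModLinearMap p := ⟨_, rfl⟩
  have hLa : ∀ (f : Q →* Q) (x : Additive Q), L f x = Additive.ofMul (f (Additive.toMul x)) := by
    intro f x; rw [hL]; rfl
  have hpow : ∀ (f : Q →* Q) (n : ℕ) (x : Additive Q),
      ((L f) ^ n) x = Additive.ofMul ((f^[n]) (Additive.toMul x)) := by
    intro f n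
    induction n with
    | zero => intro x; simp
    | succ n ih =>
      intro x
      rw [pow_succ, Module.End.mul_apply, ih, hLa, Function.iterate_succ_apply]
      rfl
  obtain ⟨v, hv0, hv⟩ := exists_common_eigen (p := p) (L '' T) (hfin.image L) (by
      rintro _ ⟨f, hf, rfl⟩ _ ⟨g, hg, rfl⟩
      apply LinearMap.ext
      intro x
      rw [Module.End.mul_apply, Module.End.mul_apply, hLa, hLa, hLa, hLa]
      exact congrArg Additive.ofMul (hc f hf g hg _)) (by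
      rintro _ ⟨f, hf, rfl⟩
      apply LinearMap.ext
      intro x
      rw [hpow, hLa, hp f hf])
  refine ⟨Additive.toMul v, fun h => hv0 (by rw [← ofMul_toMul v, h]; rfl), fun f hf => ?_⟩
  obtain ⟨a, ha⟩ := hv (L f) ⟨f, hf, rfl⟩
  refine ⟨a.val, ?_⟩
  rw [hLa] at ha
  have h1 : a • v = a.val • v := by
    conv_lhs => rw [← ZMod.natCast_zmod_val a]
    rw [Nat.cast_smul_eq_nsmul]
  rw [h1] at ha
  have h2 := congrArg Additive.toMul ha
  simpa using h2

/-- `V = Additive Q` is a `ZMod p`-module (`AddCommGroup.zmodModule`), every `f : Q →* Q` gives `(MonoidHom.toAdditive f).toZModLinearMap p`.  `a • v` for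
`a : ZMod p` is `a.val • v`, i.e. `q ^ a.val` (`ZMod.natCast_zmod_val`, `Nat.cast_smul_eq_nsmul`). -/
theorem exists_common_eigen_group {p : ℕ} [Fact p.Prime] {Q : Type*} [CommGroup Q] [Nontrivial Q]
    (hQ : ∀ q : Q, q ^ p = 1) (T : Set (Q →* Q)) (hfin : T.Finite)
    (hc : ∀ f ∈ T, ∀ g ∈ T, ∀ q, f (g q) = g (f q)) (hp : ∀ f ∈ T, ∀ q, (f^[p]) q = f q) :
    ∃ q : Q, q ≠ 1 ∧ ∀ f ∈ T, ∃ k : ℕ, f q = q ^ k :=
  @eigen_group_aux p _ Q _ _ (AddCommGroup.zmodModule (n := p) (fun x => by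
    show Additive.ofMul ((Additive.toMul x) ^ p) = 0
    rw [hQ]; rfl)) T hfin hc hp

end Cfsg.Agent.Lib.H57SsEigG
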