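import Mathlib

set_option autoImplicit false

/-! Project 5283, piece `Faith` (40m, PURE MATHLIB). -/

namespace Cfsg.Agent.Lib.H57SsFaith

/-- Prove by induction on `k`: `∀ x, x ^ (p ^ k) = 1 → α x = x`.  Step: `x ^ (p ^ (k+1)) = 1`; `x ^ p` is fixed, so `z = x⁻¹ * α x` satisfies `z ^ p = 1` (commutative), so `α z = z`,
`(α ^ m) x = x * z ^ m` for all `m`; with `m = orderOf α`: `z ^ m = 1`, and `z ^ p = 1`, coprime, so `z = 1`.  Every `x` has `x ^ (p ^ k) = 1` for some `k` (`hG`). -/
theorem faith {G : Type*} [CommGroup G] [Finite G] {p : ℕ} [Fact p.Prime] (hG : IsPGroup p G)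
    (α : MulAut G) (hα : (orderOf α).Coprime p) (hfix : ∀ x, x ^ p = 1 → α x = x) : α = 1 := by
  have key : ∀ k : ℕ, ∀ x : G, x ^ (p ^ k) = 1 → α x = x := by
    intro k
    induction k with
    | zero =>
      intro x hx
      rw [pow_zero, pow_one] at hx
      rw [hx, map_one]
    | succ k ih =>
      intro x hx
      have h1 : α (x ^ p) = x ^ p := by
        apply ih
        rw [← pow_mul, ← pow_succ']
        exact hx
      have hz : (x⁻¹ * α x) ^ p = 1 := by
        rw [mul_pow, inv_pow, ← map_pow, h1, inv_mul_cancel]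
      have hαz : α (x⁻¹ * α x) = x⁻¹ * α x := hfix _ hz
      have hm : ∀ m : ℕ, (α ^ m) x = x * (x⁻¹ * α x) ^ m := by
        intro m
        induction m with
        | zero => simp
        | succ m ihm =>
          rw [pow_succ', MulAut.mul_apply, ihm, map_mul, map_pow, hαz, pow_succ]
          generalize (x⁻¹ * α x) ^ m = w
          have : α x = x * (x⁻¹ * α x) := by group
          calc α x * w = x * (x⁻¹ * α x) * w := by rw [← this]
            _ = x * (w * (x⁻¹ * α x)) := by rw [mul_assoc, mul_comm (x⁻¹ * α x) w]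
      have h2 := hm (orderOf α)
      rw [pow_orderOf_eq_one, MulAut.one_apply] at h2
      have h3 : (x⁻¹ * α x) ^ orderOf α = 1 := by
        have := h2.symm
        rwa [mul_eq_left] at this
      have h4 : orderOf (x⁻¹ * α x) ∣ Nat.gcd (orderOf α) p :=
        Nat.dvd_gcd (orderOf_dvd_of_pow_eq_one h3) (orderOf_dvd_of_pow_eq_one hz)
      rw [hα, Nat.dvd_one, orderOf_eq_one_iff] at h4
      exact (inv_mul_eq_one.1 h4).symm
  ext x
  obtain ⟨k, hk⟩ := hG x
  exact key k x hk

end Cfsg.Agent.Lib.H57SsFaith
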