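import Cfsg.Agent.Lib.H57SsEigG

set_option autoImplicit false

/-! Project 5283, piece `Line` (quotient bookkeeping). -/

namespace Cfsg.Agent.Lib.H57SsLine

open Cfsg.Agent.Lib.H57SsEigG

theorem line {G : Type*} [Group G] [Finite G] {p : ℕ} [Fact p.Prime] (H : Subgroup (MulAut G))
    (hc : ∀ a ∈ H, ∀ b ∈ H, a * b = b * a) (he : ∀ h ∈ H, h ^ (p - 1) = 1) (Y Z : Subgroup G)
    (hYn : Y.Normal) (hYZ : Y < Z) (hZp : ∀ z ∈ Z, z ^ p ∈ Y)
    (hZc : ∀ z ∈ Z, ∀ g : G, z⁻¹ * g⁻¹ * z * g ∈ Y) (hY : ∀ h ∈ H, ∀ y ∈ Y, h y ∈ Y)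
    (hZ : ∀ h ∈ H, ∀ z ∈ Z, h z ∈ Z) :
    ∃ x ∈ Z, x ∉ Y ∧ ∀ h ∈ H, ∃ k : ℕ, (x ^ k)⁻¹ * h x ∈ Y := by
  classical
  have hp : p.Prime := Fact.out
  have hπ : ∀ a b : ↥Z, (QuotientGroup.mk a : ↥Z ⧸ Y.subgroupOf Z) = QuotientGroup.mk b ↔
      (a : G)⁻¹ * b ∈ Y := by
    intro a b
    rw [QuotientGroup.eq, Subgroup.mem_subgroupOf]
    rfl
  have hπ1 : ∀ a : ↥Z, (QuotientGroup.mk a : ↥Z ⧸ Y.subgroupOf Z) = 1 ↔ (a : G) ∈ Y := by
    intro a
    rw [QuotientGroup.eq_one_iff, Subgroup.mem_subgroupOf]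
  have hcomm : ∀ a b : ↥Z ⧸ Y.subgroupOf Z, a * b = b * a := by
    intro a b
    obtain ⟨a, rfl⟩ := QuotientGroup.mk_surjective a
    obtain ⟨b, rfl⟩ := QuotientGroup.mk_surjective b
    rw [← QuotientGroup.mk_mul, ← QuotientGroup.mk_mul, hπ]
    have h1 := hZc b b.2 a
    have e : ((a * b : ↥Z) : G)⁻¹ * ((b * a : ↥Z) : G) = (b : G)⁻¹ * (a : G)⁻¹ * b * a := by
      simp only [Subgroup.coe_mul]
      group
    rw [e]
    exact h1
  let _ : CommGroup (↥Z ⧸ Y.subgroupOf Z) :=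
    { (inferInstance : Group (↥Z ⧸ Y.subgroupOf Z)) with mul_comm := hcomm }
  have hnt : Nontrivial (↥Z ⧸ Y.subgroupOf Z) := by
    obtain ⟨z, hz, hzY⟩ := SetLike.exists_of_lt hYZ
    refine ⟨QuotientGroup.mk ⟨z, hz⟩, 1, ?_⟩
    intro h1
    exact hzY ((hπ1 _).mp h1)
  have hQ : ∀ q : ↥Z ⧸ Y.subgroupOf Z, q ^ p = 1 := by
    intro q
    obtain ⟨z, rfl⟩ := QuotientGroup.mk_surjective q
    have : (QuotientGroup.mk (z ^ p) : ↥Z ⧸ Y.subgroupOf Z) = 1 := (hπ1 _).mpr (hZp z z.2)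
    exact this
  -- restriction
  let r : ↥H → (↥Z →* ↥Z) := fun h =>
    { toFun := fun z => ⟨(h : MulAut G) z, hZ h h.2 z z.2⟩
      map_one' := Subtype.ext (map_one (h : MulAut G))
      map_mul' := fun a b => Subtype.ext (map_mul (h : MulAut G) (a : G) (b : G)) }
  have hr : ∀ h : ↥H, Y.subgroupOf Z ≤ (Y.subgroupOf Z).comap (r h) := by
    intro h z hz
    rw [Subgroup.mem_comap, Subgroup.mem_subgroupOf]
    rw [Subgroup.mem_subgroupOf] at hz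
    exact hY h h.2 z hz
  let f : ↥H → ((↥Z ⧸ Y.subgroupOf Z) →* (↥Z ⧸ Y.subgroupOf Z)) := fun h =>
    QuotientGroup.map _ _ (r h) (hr h)
  have hf : ∀ (h : ↥H) (z : ↥Z), f h (QuotientGroup.mk z) = QuotientGroup.mk (r h z) := by
    intro h z
    rfl
  have hfin : (Set.range f).Finite := Set.finite_range f
  have hcT : ∀ a ∈ Set.range f, ∀ b ∈ Set.range f, ∀ q, a (b q) = b (a q) := by
    rintro _ ⟨a, rfl⟩ _ ⟨b, rfl⟩ q
    obtain ⟨z, rfl⟩ := QuotientGroup.mk_surjective q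
    rw [hf, hf, hf, hf]
    congr 1
    apply Subtype.ext
    have := hc a a.2 b b.2
    exact DFunLike.congr_fun this (z : G)
  have hiter : ∀ (h : ↥H) (n : ℕ) (z : ↥Z), ((f h)^[n]) (QuotientGroup.mk z) =
      QuotientGroup.mk (r (h ^ n) z) := by
    intro h n
    induction n with
    | zero =>
      intro z
      simp only [Function.iterate_zero, id_eq]
      congr 1
    | succ n ih =>
      intro z
      rw [Function.iterate_succ_apply', ih, hf]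
      congr 1
      apply Subtype.ext
      show (h : MulAut G) (((h ^ n : ↥H) : MulAut G) z) = ((h ^ (n + 1) : ↥H) : MulAut G) z
      rw [pow_succ']
      rfl
  have hpT : ∀ a ∈ Set.range f, ∀ q, (a^[p]) q = a q := by
    rintro _ ⟨h, rfl⟩ q
    obtain ⟨z, rfl⟩ := QuotientGroup.mk_surjective q
    rw [hiter, hf]
    have e : h ^ p = h := by
      apply Subtype.ext
      have h1 := he h h.2
      have h2 : p = (p - 1) + 1 := by have := hp.pos; omega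
      show (h : MulAut G) ^ p = h
      rw [h2, pow_succ, h1, one_mul]
    rw [e]
  obtain ⟨q, hq1, hq⟩ := exists_common_eigen_group (p := p) hQ (Set.range f) hfin hcT hpT
  obtain ⟨x, rfl⟩ := QuotientGroup.mk_surjective q
  refine ⟨x, x.2, fun hxY => hq1 ((hπ1 x).mpr hxY), fun h hh => ?_⟩
  obtain ⟨k, hk⟩ := hq (f ⟨h, hh⟩) ⟨⟨h, hh⟩, rfl⟩
  refine ⟨k, ?_⟩
  rw [hf] at hk
  have hk' : (QuotientGroup.mk (x ^ k) : ↥Z ⧸ Y.subgroupOf Z) = QuotientGroup.mk (r ⟨h, hh⟩ x) :=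
    hk.symm
  exact (hπ _ _).mp hk'

end Cfsg.Agent.Lib.H57SsLine
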