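import Mathlib

set_option autoImplicit false

/-! Project 5283, piece `MidG` (PURE MATHLIB group theory). -/

namespace Cfsg.Agent.Lib.H57SsMidG

theorem midG {Ω : Type*} [Group Ω] {p : ℕ} [Fact p.Prime] (X Y : Subgroup Ω) [Finite Y]
    (hYp : IsPGroup p Y) (hXY : X ≤ Y) (hn : ∀ y ∈ Y, ∀ u ∈ X, y * u * y⁻¹ ∈ X) (x : Ω)
    (hx : Y = X ⊔ Subgroup.zpowers x) (hne : X ≠ Y) :
    ∃ X' : Subgroup Ω, (∀ y, y ∈ X' ↔ y ∈ Y ∧ y ^ p ∈ X) ∧ X ≠ X' ∧ X.relIndex X' ≤ p := by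
  classical
  have hp : p.Prime := Fact.out
  have hN : (X.subgroupOf Y).Normal := by
    refine ⟨fun n hn' g => ?_⟩
    rw [Subgroup.mem_subgroupOf] at hn' ⊢
    exact hn g g.2 n hn'
  have hxY : x ∈ Y := by
    rw [hx]
    exact Subgroup.mem_sup_right (Subgroup.mem_zpowers x)
  have hmk1 : ∀ y : ↥Y, (QuotientGroup.mk y : ↥Y ⧸ X.subgroupOf Y) = 1 ↔ (y : Ω) ∈ X := by
    intro y
    rw [QuotientGroup.eq_one_iff, Subgroup.mem_subgroupOf]
  set g0 : ↥Y ⧸ X.subgroupOf Y := QuotientGroup.mk ⟨x, hxY⟩ with hg0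
  have hgen : ∀ q : ↥Y ⧸ X.subgroupOf Y, q ∈ Subgroup.zpowers g0 := by
    intro q
    obtain ⟨y, rfl⟩ := QuotientGroup.mk_surjective q
    have hle : Y ≤ ((Subgroup.zpowers g0).comap (QuotientGroup.mk' (X.subgroupOf Y))).map
        Y.subtype := by
      conv_lhs => rw [hx]
      apply sup_le
      · intro u hu
        refine ⟨⟨u, hXY hu⟩, ?_, rfl⟩
        show (QuotientGroup.mk ⟨u, hXY hu⟩ : ↥Y ⧸ X.subgroupOf Y) ∈ Subgroup.zpowers g0
        rw [(hmk1 _).mpr hu]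
        exact Subgroup.one_mem _
      · rw [Subgroup.zpowers_le]
        exact ⟨⟨x, hxY⟩, Subgroup.mem_zpowers g0, rfl⟩
    obtain ⟨y', hy', hyy⟩ := hle y.2
    have : y' = y := Subtype.ext hyy
    rw [← this]
    exact hy'
  have hcyc : IsCyclic (↥Y ⧸ X.subgroupOf Y) := ⟨g0, hgen⟩
  have hcomm : ∀ a b : ↥Y ⧸ X.subgroupOf Y, Commute a b := by
    intro a b
    obtain ⟨i, rfl⟩ := hgen a
    obtain ⟨j, rfl⟩ := hgen b
    exact (Commute.refl g0).zpow_zpow i j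
  let K : Subgroup (↥Y ⧸ X.subgroupOf Y) :=
    { carrier := {q | q ^ p = 1}
      one_mem' := one_pow _
      mul_mem' := by
        intro a b ha hb
        show (a * b) ^ p = 1
        rw [(hcomm a b).mul_pow, ha, hb, one_mul]
      inv_mem' := by
        intro a ha
        show (a⁻¹) ^ p = 1
        rw [inv_pow, ha, inv_one] }
  have hKcard : Nat.card K ≤ p := by
    have : Fintype (↥Y ⧸ X.subgroupOf Y) := Fintype.ofFinite _
    have h1 := IsCyclic.card_pow_eq_one_le (α := ↥Y ⧸ X.subgroupOf Y) hp.pos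
    refine le_trans (le_of_eq ?_) h1
    rw [Nat.card_eq_fintype_card, ← Fintype.card_subtype]
    exact Fintype.card_congr (Equiv.refl _)
  set K' := K.comap (QuotientGroup.mk' (X.subgroupOf Y)) with hK'
  refine ⟨K'.map Y.subtype, ?_, ?_, ?_⟩
  · intro y
    constructor
    · rintro ⟨y', hy', rfl⟩
      refine ⟨y'.2, ?_⟩
      have h1 : (QuotientGroup.mk y' : ↥Y ⧸ X.subgroupOf Y) ^ p = 1 := hy'
      rw [← QuotientGroup.mk_pow] at h1
      exact (hmk1 _).mp h1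
    · rintro ⟨hy, hyp⟩
      refine ⟨⟨y, hy⟩, ?_, rfl⟩
      show (QuotientGroup.mk ⟨y, hy⟩ : ↥Y ⧸ X.subgroupOf Y) ^ p = 1
      rw [← QuotientGroup.mk_pow]
      exact (hmk1 _).mpr hyp
  · intro hXX
    -- an element of `Y \ X`
    have hex : ∃ y ∈ Y, y ∉ X := by
      by_contra hcon
      push Not at hcon
      exact hne (le_antisymm hXY hcon)
    obtain ⟨y, hy, hyX⟩ := hex
    obtain ⟨n, hn'⟩ := hYp ⟨y, hy⟩
    have hn1 : y ^ p ^ n = 1 := by
      have := congrArg Subtype.val hn'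
      simpa using this
    have hex2 : ∃ k, y ^ p ^ k ∈ X := ⟨n, by rw [hn1]; exact X.one_mem⟩
    set k := Nat.find hex2 with hk
    have hk1 : y ^ p ^ k ∈ X := Nat.find_spec hex2
    have hk0 : k ≠ 0 := by
      intro h0
      rw [h0] at hk1
      simp at hk1
      exact hyX hk1
    obtain ⟨j, hj⟩ := Nat.exists_eq_succ_of_ne_zero hk0
    have hjn : y ^ p ^ j ∉ X := by
      apply Nat.find_min hex2
      omega
    apply hjn
    rw [hXX]
    refine ⟨⟨y ^ p ^ j, Y.pow_mem hy _⟩, ?_, rfl⟩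
    show (QuotientGroup.mk ⟨y ^ p ^ j, Y.pow_mem hy _⟩ : ↥Y ⧸ X.subgroupOf Y) ^ p = 1
    rw [← QuotientGroup.mk_pow]
    apply (hmk1 _).mpr
    show (y ^ p ^ j) ^ p ∈ X
    rw [← pow_mul, ← pow_succ, ← Nat.succ_eq_add_one, ← hj]
    exact hk1
  · have h1 : X = (X.subgroupOf Y).map Y.subtype := by
      rw [Subgroup.subgroupOf_map_subtype, inf_eq_left.mpr hXY]
    conv_lhs => rw [h1]
    rw [Subgroup.relIndex_map_map_of_injective _ _ Y.subtype_injective]
    have h2 : (X.subgroupOf Y) = (QuotientGroup.mk' (X.subgroupOf Y)).ker :=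
      (QuotientGroup.ker_mk' _).symm
    conv_lhs => rw [h2]
    rw [Subgroup.relIndex_ker, hK',
      Subgroup.map_comap_eq_self_of_surjective (QuotientGroup.mk'_surjective _)]
    exact hKcard

end Cfsg.Agent.Lib.H57SsMidG
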