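import Cfsg.Agent.Lib.H57SsDefs2
import Cfsg.Agent.Lib.H57SsAbExpRel
import Cfsg.Agent.Lib.H57SsFaith

set_option autoImplicit false

/-! Project 5283, piece `PChain` (pure). -/

namespace Cfsg.Agent.Lib.H57SsPChain

open Cfsg.Agent.Lib.H57SsDefs Cfsg.Agent.Lib.H57SsDefs2 Cfsg.Agent.Lib.H57SsAbExpRel
  Cfsg.Agent.Lib.H57SsFaith Cfsg.Agent.Lib.H57SsStabRel

theorem W_succ_le (p : ℕ) (G : Type*) [CommGroup G] (i : ℕ) : W p G (i + 1) ≤ W p G i := by
  rintro x ⟨hx, y, hy⟩
  refine ⟨hx, y ^ p, ?_⟩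
  rw [← pow_mul, ← pow_succ', hy]

theorem pcond_of_chain {G : Type*} [CommGroup G] [Finite G] {p : ℕ} [Fact p.Prime]
    (hG : IsPGroup p G) (N : ℕ) (hN : W p G N = ⊥)
    (hidx : ∀ j, (W p G (j + 1)).relIndex (W p G j) ≤ p) : PCond p G := by
  have hp : p.Prime := Fact.out
  intro H hH
  have h0 : (fun j => W p G (N - j)) 0 = ⊥ := by
    simpa using hN
  have hle : ∀ j, (fun j => W p G (N - j)) j ≤ (fun j => W p G (N - j)) (j + 1) := by
    intro j
    show W p G (N - j) ≤ W p G (N - (j + 1))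
    by_cases hj : j < N
    · have e : N - j = (N - (j + 1)) + 1 := by omega
      rw [e]
      exact W_succ_le p G _
    · have e : N - j = N - (j + 1) := by omega
      rw [e]
  have hidx' : ∀ j, ((fun j => W p G (N - j)) j).relIndex ((fun j => W p G (N - j)) (j + 1)) ≤ p := by
    intro j
    show (W p G (N - j)).relIndex (W p G (N - (j + 1))) ≤ p
    by_cases hj : j < N
    · have e : N - j = (N - (j + 1)) + 1 := by omega
      rw [e]
      exact hidx _
    · have e : N - j = N - (j + 1) := by omega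
      rw [e, Subgroup.relIndex_self]
      exact hp.one_lt.le
  have hinv : ∀ h ∈ H, ∀ j, ∀ x ∈ (fun j => W p G (N - j)) j, h x ∈ (fun j => W p G (N - j)) j := by
    rintro h - j x ⟨hx, y, hy⟩
    refine ⟨?_, h y, ?_⟩
    · rw [← map_pow, hx, map_one]
    · rw [← map_pow, hy]
  obtain ⟨hc, he⟩ := abelian_exp_rel hG H hH (fun j => W p G (N - j)) h0 hle hidx' hinv
  have hmemN : ∀ x : G, x ^ p = 1 → x ∈ (fun j => W p G (N - j)) N := by
    intro x hx
    show x ∈ W p G (N - N)
    rw [Nat.sub_self]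
    exact ⟨hx, x, by simp⟩
  constructor
  · refine ⟨⟨fun a b => Subtype.ext ?_⟩⟩
    show (a : MulAut G) * b = b * a
    have hmem : ((b : MulAut G) * a)⁻¹ * (a * b) ∈ H :=
      H.mul_mem (H.inv_mem (H.mul_mem b.2 a.2)) (H.mul_mem a.2 b.2)
    have h1 := faith hG _ (orderOf_coprime H hH hmem) (fun x hx => by
      have h2 := hc a a.2 b b.2 N x (hmemN x hx)
      show ((b : MulAut G) * (a : MulAut G))⁻¹ ((a : MulAut G) ((b : MulAut G) x)) = x
      rw [h2]
      exact MulEquiv.symm_apply_apply ((b : MulAut G) * (a : MulAut G)) x)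
    rw [inv_mul_eq_one] at h1
    exact h1.symm
  · intro h hh
    exact faith hG _ (orderOf_coprime H hH (H.pow_mem hh _)) (fun x hx => he h hh N x (hmemN x hx))

end Cfsg.Agent.Lib.H57SsPChain
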