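import Mathlib
import Cfsg.Prelude.Def_KGroupFacts

set_option autoImplicit false

/-! Project 5283, piece `PElt` (40m, pure group theory). -/

namespace Cfsg.Agent.Lib.H57SsPElt

open Cfsg

/-- Model: `Helper89AutSys.pElement_mem_inn`.  `Inn T` is normal in `MulAut T`; the image of `Inn T ⊔ H` in `MulAut T ⧸ Inn T` is the image
of `H`, so the image `b'` of `b` satisfies `b' ^ Nat.card H = 1` and `b' ^ p ^ k = 1`; coprime, so `b' = 1`. -/
theorem pElt_inn {T : Type*} [Group T] {p : ℕ} [Fact p.Prime] (H : Subgroup (MulAut T))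
    (hH : (Nat.card ↥H).Coprime p) :
    ∀ b ∈ Inn T ⊔ H, (∃ k : ℕ, b ^ p ^ k = 1) → b ∈ Inn T := by
  rintro b hb ⟨k, hk⟩
  have hle : Inn T ⊔ H ≤ (H.map (QuotientGroup.mk' (Inn T))).comap (QuotientGroup.mk' (Inn T)) := by
    refine sup_le (fun x hx => ?_) ?_
    · rw [Subgroup.mem_comap]
      have : QuotientGroup.mk' (Inn T) x = 1 := (QuotientGroup.eq_one_iff x).2 hx
      rw [this]
      exact Subgroup.one_mem _
    · exact Subgroup.le_comap_map _ _
  obtain ⟨h, hh, hhb⟩ := hle hb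
  have h1 : (QuotientGroup.mk' (Inn T) b) ^ Nat.card H = 1 := by
    rw [← hhb, ← map_pow]
    have : (⟨h, hh⟩ : H) ^ Nat.card H = 1 := pow_card_eq_one'
    have h2 : h ^ Nat.card H = 1 := congrArg Subtype.val this
    rw [h2, map_one]
  have h2 : (QuotientGroup.mk' (Inn T) b) ^ p ^ k = 1 := by rw [← map_pow, hk, map_one]
  have h3 : orderOf (QuotientGroup.mk' (Inn T) b) ∣ Nat.gcd (Nat.card H) (p ^ k) :=
    Nat.dvd_gcd (orderOf_dvd_of_pow_eq_one h1) (orderOf_dvd_of_pow_eq_one h2)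
  have h4 : Nat.gcd (Nat.card H) (p ^ k) = 1 := Nat.Coprime.pow_right k hH
  rw [h4, Nat.dvd_one, orderOf_eq_one_iff] at h3
  exact (QuotientGroup.eq_one_iff b).1 h3

end Cfsg.Agent.Lib.H57SsPElt
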