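import Mathlib

set_option autoImplicit false

/-! Project 5283, piece `Pow` (PURE MATHLIB group theory). -/

namespace Cfsg.Agent.Lib.H57SsPow

theorem pow_step {G : Type*} [Group G] [Finite G] {p : ℕ} [Fact p.Prime] (hG : IsPGroup p G)
    (X Y : Subgroup G) (hXY : X ≤ Y) (hidx : X.relIndex Y ≤ p) :
    (∀ y ∈ Y, ∀ u ∈ X, y * u * y⁻¹ ∈ X) ∧ (∀ y ∈ Y, y ^ p ∈ X) ∧
    (∀ y ∈ Y, ∀ z ∈ Y, y⁻¹ * z⁻¹ * y * z ∈ X) ∧
    ∀ α : MulAut G, (∀ u ∈ X, α u ∈ X) → (∀ y ∈ Y, α y ∈ Y) →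
      ∃ m : ℤ, ∀ y ∈ Y, (y ^ m)⁻¹ * α y ∈ X := by
  classical
  have hp : p.Prime := Fact.out
  have hYp : IsPGroup p ↥Y := hG.to_subgroup Y
  have hidx' : (X.subgroupOf Y).index ≤ p := hidx
  obtain ⟨n, hn⟩ := hYp.index (X.subgroupOf Y)
  have hcases : (X.subgroupOf Y).index = 1 ∨ (X.subgroupOf Y).index = p := by
    rcases Nat.lt_or_ge n 2 with h2 | h2
    · interval_cases n
      · left; simpa using hn
      · right; simpa using hn
    · exfalso
      have h3 : p ^ 2 ≤ p ^ n := Nat.pow_le_pow_right hp.pos h2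
      have h4 : p < p ^ 2 := by nlinarith [hp.one_lt]
      omega
  have hN : (X.subgroupOf Y).Normal := by
    rcases hcases with h1 | h1
    · rw [Subgroup.index_eq_one] at h1
      rw [h1]
      infer_instance
    · apply Subgroup.normal_of_index_eq_minFac_card
      rw [h1]
      obtain ⟨k, hk⟩ := IsPGroup.iff_card.mp hYp
      have hk0 : k ≠ 0 := by
        rintro rfl
        have h2 : (X.subgroupOf Y).index ∣ Nat.card ↥Y := Subgroup.index_dvd_card _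
        rw [hk, h1, pow_zero] at h2
        exact hp.one_lt.ne' (Nat.dvd_one.mp h2)
      rw [hk, hp.pow_minFac hk0]
  have hcard : Nat.card (↥Y ⧸ X.subgroupOf Y) = (X.subgroupOf Y).index := rfl
  have hcyc : IsCyclic (↥Y ⧸ X.subgroupOf Y) := by
    rcases hcases with h1 | h1
    · have : Subsingleton (↥Y ⧸ X.subgroupOf Y) := by
        rw [← Finite.card_le_one_iff_subsingleton, hcard, h1]
      exact isCyclic_of_subsingleton
    · exact isCyclic_of_prime_card (p := p) (hcard.trans h1)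
  have hπ : ∀ a b : ↥Y, (QuotientGroup.mk a : ↥Y ⧸ X.subgroupOf Y) = QuotientGroup.mk b ↔
      (a : G)⁻¹ * b ∈ X := by
    intro a b
    rw [QuotientGroup.eq, Subgroup.mem_subgroupOf]
    rfl
  have hπ1 : ∀ a : ↥Y, (QuotientGroup.mk a : ↥Y ⧸ X.subgroupOf Y) = 1 ↔ (a : G) ∈ X := by
    intro a
    rw [QuotientGroup.eq_one_iff, Subgroup.mem_subgroupOf]
  refine ⟨?_, ?_, ?_, ?_⟩
  · intro y hy u hu
    have := hN.conj_mem ⟨u, hXY hu⟩ (Subgroup.mem_subgroupOf.mpr hu) ⟨y, hy⟩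
    exact Subgroup.mem_subgroupOf.mp this
  · intro y hy
    have h1 : (QuotientGroup.mk ⟨y, hy⟩ : ↥Y ⧸ X.subgroupOf Y) ^ p = 1 := by
      have h2 := pow_card_eq_one' (x := (QuotientGroup.mk ⟨y, hy⟩ : ↥Y ⧸ X.subgroupOf Y))
      rcases hcases with h1 | h1
      · rw [hcard, h1, pow_one] at h2
        rw [h2, one_pow]
      · rw [hcard, h1] at h2
        exact h2
    rw [← QuotientGroup.mk_pow] at h1
    exact (hπ1 _).mp h1
  · intro y hy z hz
    obtain ⟨g, hg⟩ := hcyc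
    obtain ⟨i, hi⟩ := hg (QuotientGroup.mk ⟨y, hy⟩)
    obtain ⟨j, hj⟩ := hg (QuotientGroup.mk ⟨z, hz⟩)
    have hcm : Commute (QuotientGroup.mk ⟨y, hy⟩ : ↥Y ⧸ X.subgroupOf Y)
        (QuotientGroup.mk ⟨z, hz⟩) := by
      rw [← hi, ← hj]
      exact (Commute.refl g).zpow_zpow i j
    have h1 : (QuotientGroup.mk ((⟨z, hz⟩ : ↥Y) * ⟨y, hy⟩) : ↥Y ⧸ X.subgroupOf Y) =
        QuotientGroup.mk ((⟨y, hy⟩ : ↥Y) * ⟨z, hz⟩) := by
      rw [QuotientGroup.mk_mul, QuotientGroup.mk_mul]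
      exact hcm.eq.symm
    have h2 := (hπ _ _).mp h1
    have e : (((⟨z, hz⟩ : ↥Y) * ⟨y, hy⟩ : ↥Y) : G)⁻¹ * (((⟨y, hy⟩ : ↥Y) * ⟨z, hz⟩ : ↥Y) : G) =
        y⁻¹ * z⁻¹ * y * z := by
      simp only [Subgroup.coe_mul]
      group
    rw [e] at h2
    exact h2
  · intro α hαX hαY
    let r : ↥Y →* ↥Y :=
      { toFun := fun z => ⟨α z, hαY z z.2⟩
        map_one' := Subtype.ext (map_one α)
        map_mul' := fun a b => Subtype.ext (map_mul α (a : G) (b : G)) }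
    have hr : X.subgroupOf Y ≤ (X.subgroupOf Y).comap r := by
      intro z hz
      rw [Subgroup.mem_comap, Subgroup.mem_subgroupOf]
      rw [Subgroup.mem_subgroupOf] at hz
      exact hαX z hz
    obtain ⟨m, hm⟩ := MonoidHom.map_cyclic (QuotientGroup.map _ _ r hr)
    refine ⟨m, fun y hy => ?_⟩
    have h1 := hm (QuotientGroup.mk ⟨y, hy⟩)
    rw [← QuotientGroup.mk_zpow] at h1
    have h2 : (QuotientGroup.mk ((⟨y, hy⟩ : ↥Y) ^ m) : ↥Y ⧸ X.subgroupOf Y) =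
        QuotientGroup.mk (r ⟨y, hy⟩) := h1.symm
    exact (hπ _ _).mp h2

end Cfsg.Agent.Lib.H57SsPow
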