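import Mathlib
import Cfsg.Prelude.Def_KGroupFacts

set_option autoImplicit false

/-! Project 5283, piece `SZ` (pure group theory: Schur-Zassenhaus from Mathlib). -/

namespace Cfsg.Agent.Lib.H57SsSZ

open Cfsg

theorem exists_compl {G : Type*} [Group G] [Finite G] {p : ℕ} [Fact p.Prime] (hG : IsPGroup p G)
    (A : Subgroup (MulAut G)) (hInn : Inn G ≤ A)
    (hpA : ∀ a ∈ A, (∃ k : ℕ, a ^ p ^ k = 1) → a ∈ Inn G) :
    ∃ H : Subgroup (MulAut G), H ≤ A ∧ (Nat.card ↥H).Coprime p ∧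
      ∀ a ∈ A, ∃ g : G, ∃ h ∈ H, a = MulAut.conj g * h := by
  classical
  have hp : p.Prime := Fact.out
  have hInnp : IsPGroup p ↥(Inn G) :=
    hG.of_surjective (MulAut.conj : G →* MulAut G).rangeRestrict
      (MonoidHom.rangeRestrict_surjective _)
  have hNp : IsPGroup p ↥((Inn G).subgroupOf A) := hInnp.comap_subtype
  have hNn : ((Inn G).subgroupOf A).Normal := inferInstance
  have hnd : ¬ p ∣ ((Inn G).subgroupOf A).index := by
    let P : Sylow p ↥A := default
    have hPN : (P : Subgroup ↥A) ≤ (Inn G).subgroupOf A := by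
      intro a ha
      rw [Subgroup.mem_subgroupOf]
      obtain ⟨k, hk⟩ := P.isPGroup' ⟨a, ha⟩
      apply hpA a a.2
      refine ⟨k, ?_⟩
      have h1 := congrArg Subtype.val hk
      have h2 := congrArg Subtype.val h1
      simpa using h2
    intro hd
    exact P.not_dvd_index (hd.trans (Subgroup.index_dvd_of_le hPN))
  have hcop : Nat.Coprime (Nat.card ↥((Inn G).subgroupOf A)) ((Inn G).subgroupOf A).index := by
    obtain ⟨k, hk⟩ := IsPGroup.iff_card.mp hNp
    rw [hk]
    exact Nat.Coprime.pow_left k ((Nat.Prime.coprime_iff_not_dvd hp).mpr hnd)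
  obtain ⟨H', hH'⟩ := Subgroup.exists_right_complement'_of_coprime hcop
  refine ⟨H'.map A.subtype, Subgroup.map_subtype_le _, ?_, ?_⟩
  · rw [Subgroup.card_map_of_injective A.subtype_injective, ← hH'.symm.index_eq_card]
    exact ((Nat.Prime.coprime_iff_not_dvd hp).mpr hnd).symm
  · intro a ha
    obtain ⟨⟨n, h⟩, hnh, -⟩ := hH'.existsUnique ⟨a, ha⟩
    have hn : ((n : ↥A) : MulAut G) ∈ Inn G := Subgroup.mem_subgroupOf.mp n.2
    obtain ⟨g, hg⟩ := hn
    refine ⟨g, ((h : ↥A) : MulAut G), ⟨h, h.2, rfl⟩, ?_⟩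
    rw [hg]
    have := congrArg Subtype.val hnh
    exact this.symm

end Cfsg.Agent.Lib.H57SsSZ
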