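import Mathlib

set_option autoImplicit false

/-! Project 5283, piece `Z` (PURE MATHLIB group theory). -/

namespace Cfsg.Agent.Lib.H57SsZ

theorem exists_Z {G : Type*} [Group G] [Finite G] {p : ℕ} [Fact p.Prime] (hG : IsPGroup p G)
    (Y : Subgroup G) (hYn : Y.Normal) (hne : Y ≠ ⊤) :
    ∃ Z : Subgroup G, Y < Z ∧ ∀ z, z ∈ Z ↔ (z ^ p ∈ Y ∧ ∀ g : G, z⁻¹ * g⁻¹ * z * g ∈ Y) := by
  classical
  have hp : p.Prime := Fact.out
  have hnt : Nontrivial (G ⧸ Y) := by
    rw [QuotientGroup.nontrivial_iff]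
    exact hne
  have hQ : IsPGroup p (G ⧸ Y) := hG.to_quotient Y
  have hcn : Nontrivial (Subgroup.center (G ⧸ Y)) := hQ.center_nontrivial
  have hcp : IsPGroup p (Subgroup.center (G ⧸ Y)) := hQ.to_subgroup _
  have hdvd : p ∣ Nat.card (Subgroup.center (G ⧸ Y)) := by
    rcases hcp.card_eq_or_dvd with h1 | h1
    · exfalso
      have := Finite.one_lt_card (α := Subgroup.center (G ⧸ Y))
      omega
    · exact h1
  obtain ⟨c, hc⟩ := exists_prime_orderOf_dvd_card' p hdvd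
  let K : Subgroup (G ⧸ Y) :=
    { carrier := {q | q ∈ Subgroup.center (G ⧸ Y) ∧ q ^ p = 1}
      one_mem' := ⟨Subgroup.one_mem _, one_pow _⟩
      mul_mem' := by
        rintro a b ⟨ha, ha'⟩ ⟨hb, hb'⟩
        refine ⟨Subgroup.mul_mem _ ha hb, ?_⟩
        have : Commute a b := (Subgroup.mem_center_iff.mp ha b).symm
        rw [this.mul_pow, ha', hb', one_mul]
      inv_mem' := by
        rintro a ⟨ha, ha'⟩
        exact ⟨Subgroup.inv_mem _ ha, by rw [inv_pow, ha', inv_one]⟩ }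
  have hmem : ∀ z, z ∈ K.comap (QuotientGroup.mk' Y) ↔
      (z ^ p ∈ Y ∧ ∀ g : G, z⁻¹ * g⁻¹ * z * g ∈ Y) := by
    intro z
    have e1 : z ∈ K.comap (QuotientGroup.mk' Y) ↔
      ((QuotientGroup.mk z : G ⧸ Y) ∈ Subgroup.center (G ⧸ Y) ∧ (QuotientGroup.mk z : G ⧸ Y) ^ p = 1) :=
      Iff.rfl
    rw [e1, ← QuotientGroup.mk_pow, QuotientGroup.eq_one_iff, and_comm, Subgroup.mem_center_iff]
    apply and_congr Iff.rfl
    constructor
    · intro h g
      have h1 := h (QuotientGroup.mk g)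
      rw [← QuotientGroup.mk_mul, ← QuotientGroup.mk_mul, QuotientGroup.eq] at h1
      have e : (g * z)⁻¹ * (z * g) = z⁻¹ * g⁻¹ * z * g := by group
      rw [e] at h1
      exact h1
    · intro h q
      obtain ⟨g, rfl⟩ := QuotientGroup.mk_surjective q
      rw [← QuotientGroup.mk_mul, ← QuotientGroup.mk_mul, QuotientGroup.eq]
      have e : (g * z)⁻¹ * (z * g) = z⁻¹ * g⁻¹ * z * g := by group
      rw [e]
      exact h g
  refine ⟨K.comap (QuotientGroup.mk' Y), ?_, hmem⟩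
  rw [lt_iff_le_and_ne]
  constructor
  · intro y hy
    show (QuotientGroup.mk y : G ⧸ Y) ∈ K
    rw [(QuotientGroup.eq_one_iff y).mpr hy]
    exact K.one_mem
  · intro heq
    obtain ⟨x, hx⟩ := QuotientGroup.mk_surjective (c : G ⧸ Y)
    have hxK : x ∈ K.comap (QuotientGroup.mk' Y) := by
      show (QuotientGroup.mk x : G ⧸ Y) ∈ K
      rw [hx]
      refine ⟨c.2, ?_⟩
      have := pow_orderOf_eq_one c
      rw [hc] at this
      exact_mod_cast congrArg Subtype.val this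
    rw [← heq] at hxK
    have h1 : (c : G ⧸ Y) = 1 := by
      rw [← hx]
      exact (QuotientGroup.eq_one_iff x).mpr hxK
    have h2 : c = 1 := Subtype.ext h1
    rw [h2, orderOf_one] at hc
    exact hp.one_lt.ne hc

end Cfsg.Agent.Lib.H57SsZ
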