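import Cfsg.Agent.Lib.H57SsDefs
import Cfsg.Agent.Lib.H57SsSZ
import Cfsg.Agent.Lib.H57SsZ
import Cfsg.Agent.Lib.H57SsLine

set_option autoImplicit false

/-! Project 5283, piece `Step` (pure group theory from `exists_compl`, `exists_Z`, `line`). -/

namespace Cfsg.Agent.Lib.H57SsStep

open Cfsg Cfsg.Agent.Lib.H57SsDefs Cfsg.Agent.Lib.H57SsSZ Cfsg.Agent.Lib.H57SsZ
  Cfsg.Agent.Lib.H57SsLine

theorem step {G : Type*} [Group G] [Finite G] {p : ℕ} [Fact p.Prime] (hG : IsPGroup p G)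
    (A : Subgroup (MulAut G)) (hInn : Inn G ≤ A)
    (hpA : ∀ a ∈ A, (∃ k : ℕ, a ^ p ^ k = 1) → a ∈ Inn G) (hH : PCond p G)
    (Y : Subgroup G) (hY : ∀ α ∈ A, ∀ y ∈ Y, α y ∈ Y) (hne : Y ≠ ⊤) :
    ∃ x, x ∉ Y ∧ ∀ α ∈ A, ∀ y ∈ Y ⊔ Subgroup.zpowers x, α y ∈ Y ⊔ Subgroup.zpowers x := by
  have hYn : Y.Normal := by
    refine ⟨fun y hy g => ?_⟩
    exact hY (MulAut.conj g) (hInn ⟨g, rfl⟩) y hy
  obtain ⟨H, hHA, hHcop, hfac⟩ := exists_compl hG A hInn hpA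
  obtain ⟨hHc, hHe⟩ := hH H hHcop
  have hc : ∀ a ∈ H, ∀ b ∈ H, a * b = b * a := by
    intro a ha b hb
    have := hHc.is_comm.comm ⟨a, ha⟩ ⟨b, hb⟩
    exact congrArg Subtype.val this
  obtain ⟨Z, hYZ, hZmem⟩ := exists_Z hG Y hYn hne
  have hZinv : ∀ α ∈ A, ∀ z ∈ Z, α z ∈ Z := by
    intro α hα z hz
    obtain ⟨h1, h2⟩ := (hZmem z).mp hz
    rw [hZmem]
    refine ⟨?_, fun g => ?_⟩
    · rw [← map_pow]
      exact hY α hα _ h1
    · have h3 := hY α hα _ (h2 (α.symm g))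
      simpa using h3
  obtain ⟨x, hxZ, hxY, hx⟩ := line H hc hHe Y Z hYn hYZ (fun z hz => ((hZmem z).mp hz).1)
    (fun z hz => ((hZmem z).mp hz).2) (fun h hh => hY h (hHA hh))
    (fun h hh => hZinv h (hHA hh))
  refine ⟨x, hxY, ?_⟩
  have hxW : x ∈ Y ⊔ Subgroup.zpowers x := Subgroup.mem_sup_right (Subgroup.mem_zpowers x)
  have hHinv : ∀ h ∈ H, Y ⊔ Subgroup.zpowers x ≤
      (Y ⊔ Subgroup.zpowers x).comap (h : MulAut G).toMonoidHom := by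
    intro h hh
    apply sup_le
    · intro y hy
      exact Subgroup.mem_sup_left (hY h (hHA hh) y hy)
    · rw [Subgroup.zpowers_le]
      show h x ∈ Y ⊔ Subgroup.zpowers x
      obtain ⟨k, hk⟩ := hx h hh
      have e : h x = x ^ k * ((x ^ k)⁻¹ * h x) := by group
      rw [e]
      exact Subgroup.mul_mem _ (Subgroup.pow_mem _ hxW k) (Subgroup.mem_sup_left hk)
  have hIinv : ∀ g : G, Y ⊔ Subgroup.zpowers x ≤
      (Y ⊔ Subgroup.zpowers x).comap (MulAut.conj g).toMonoidHom := by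
    intro g
    apply sup_le
    · intro y hy
      exact Subgroup.mem_sup_left (hYn.conj_mem y hy g)
    · rw [Subgroup.zpowers_le]
      show g * x * g⁻¹ ∈ Y ⊔ Subgroup.zpowers x
      have h1 := ((hZmem x).mp hxZ).2 g⁻¹
      have e : g * x * g⁻¹ = x * (x⁻¹ * g⁻¹⁻¹ * x * g⁻¹) := by group
      rw [e]
      exact Subgroup.mul_mem _ hxW (Subgroup.mem_sup_left h1)
  intro α hα y hy
  obtain ⟨g, h, hh, rfl⟩ := hfac α hα
  exact hIinv g (hHinv h hh hy)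

end Cfsg.Agent.Lib.H57SsStep
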