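import Mathlib

set_option autoImplicit false

/-! Project 5283, piece `Struct` (PURE MATHLIB). -/

namespace Cfsg.Agent.Lib.H57SsStruct

/-- splitting one factor off a product of groups, as a `MulEquiv` -/
noncomputable def splitAt {α : Type} (i : α) (β : α → Type) [∀ a, Group (β a)] :
    ((j : α) → β j) ≃* β i × ((j : { j // j ≠ i }) → β ↑j) := by
  classical
  exact { Equiv.piSplitAt i β with map_mul' := fun _ _ => rfl }

/-- splitting two equal factors off -/
theorem split_two {p : ℕ} {ι : Type} (e : ι → ℕ) (i j : ι) (hij : i ≠ j) (hej : e i = e j) :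
    ∃ (H : Type) (_ : CommGroup H),
      Nonempty (((l : ι) → Multiplicative (ZMod (p ^ e l))) ≃*
        (Multiplicative (ZMod (p ^ e i)) × Multiplicative (ZMod (p ^ e i))) × H) := by
  classical
  let β : ι → Type := fun l => Multiplicative (ZMod (p ^ e l))
  let γ : { l // l ≠ i } → Type := fun l => β l.1
  let j' : { l // l ≠ i } := ⟨j, hij.symm⟩
  let f1 : ((l : ι) → β l) ≃* β i × ((l : { l // l ≠ i }) → γ l) := splitAt i β
  let f2 : ((l : { l // l ≠ i }) → γ l) ≃* γ j' × ((l : { l // l ≠ j' }) → γ l.1) := splitAt j' γ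
  have hβ : β j = β i := by
    show Multiplicative (ZMod (p ^ e j)) = Multiplicative (ZMod (p ^ e i))
    rw [hej]
  have f3 : Nonempty (γ j' ≃* β i) := by
    show Nonempty (Multiplicative (ZMod (p ^ e j)) ≃* Multiplicative (ZMod (p ^ e i)))
    rw [hej]
    exact ⟨MulEquiv.refl _⟩
  obtain ⟨f3⟩ := f3
  refine ⟨((l : { l // l ≠ j' }) → γ l.1), inferInstance, ⟨?_⟩⟩
  exact f1.trans (((MulEquiv.refl (β i)).prodCongr
    (f2.trans (f3.prodCongr (MulEquiv.refl _)))).trans MulEquiv.prodAssoc.symm)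

theorem exists_struct {G : Type*} [Group G] [Finite G] {p : ℕ} [Fact p.Prime] (hG : IsPGroup p G)
    (hab : ∀ a b : G, a * b = b * a)
    (hno : ¬ ∃ (n : ℕ) (H : Type) (_ : CommGroup H), 0 < n ∧
      Nonempty (G ≃* (Multiplicative (ZMod (p ^ n)) × Multiplicative (ZMod (p ^ n))) × H)) :
    ∃ (ι : Type) (_ : Fintype ι) (e : ι → ℕ), Function.Injective e ∧ (∀ i, 0 < e i) ∧
      Nonempty (G ≃* ((i : ι) → Multiplicative (ZMod (p ^ e i)))) := by
  classical
  have hp : p.Prime := Fact.out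
  have key : ∃ (ι : Type) (_ : Fintype ι) (n : ι → ℕ), (∀ i, 1 < n i) ∧
      Nonempty (G ≃* ((i : ι) → Multiplicative (ZMod (n i)))) := by
    let _ : CommGroup G := { (inferInstance : Group G) with mul_comm := hab }
    exact CommGroup.equiv_prod_multiplicative_zmod_of_finite G
  obtain ⟨ι, hι, n, hn, ⟨φ⟩⟩ := key
  obtain ⟨k, hk⟩ := hG.exists_card_eq
  have hdvd : ∀ i, n i ∣ p ^ k := by
    intro i
    rw [← hk, Nat.card_congr φ.toEquiv, Nat.card_pi]
    have h1 : Nat.card (Multiplicative (ZMod (n i))) = n i := by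
      rw [Nat.card_eq_of_bijective _ Multiplicative.toAdd.bijective, Nat.card_zmod]
    calc n i = Nat.card (Multiplicative (ZMod (n i))) := h1.symm
      _ ∣ _ := Finset.dvd_prod_of_mem (fun a => Nat.card (Multiplicative (ZMod (n a))))
        (Finset.mem_univ i)
  have hex : ∀ i, ∃ m, n i = p ^ m := by
    intro i
    obtain ⟨m, -, hm⟩ := (Nat.dvd_prime_pow hp).1 (hdvd i)
    exact ⟨m, hm⟩
  choose e he using hex
  obtain rfl : n = fun i => p ^ e i := funext he
  have hpos : ∀ i, 0 < e i := by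
    intro i
    rcases Nat.eq_zero_or_pos (e i) with h | h
    · have := hn i
      simp only [h, pow_zero, lt_self_iff_false] at this
    · exact h
  refine ⟨ι, hι, e, ?_, hpos, ⟨φ⟩⟩
  intro i j hij
  by_contra hne
  obtain ⟨H, hH, ⟨ψ⟩⟩ := split_two (p := p) e i j hne hij
  exact hno ⟨e i, H, hH, hpos i, ⟨φ.trans ψ⟩⟩

end Cfsg.Agent.Lib.H57SsStruct
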