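import Cfsg.Agent.Lib.H57SsDefs

set_option autoImplicit false

/-! Project 5283, piece `Transport` (30m, pure). -/

namespace Cfsg.Agent.Lib.H57SsTransport

open Cfsg.Agent.Lib.H57SsDefs

/-- `MulAut.congr e : MulAut G ≃* MulAut G'`.  For `H' ≤ MulAut G'` take `H = H'.comap (MulAut.congr e).toMonoidHom` (or `map` of the inverse), same cardinality
(`Subgroup.card_map_of_injective` / `Nat.card_congr`), transport commutativity and `h ^ (p - 1) = 1` by injectivity. -/
theorem pcond_congr {p : ℕ} {G G' : Type*} [Group G] [Group G'] (e : G ≃* G') (h : PCond p G) :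
    PCond p G' := by
  intro H' hH'
  let E : MulAut G' ≃* MulAut G := MulAut.congr e.symm
  have hinj : Function.Injective E.toMonoidHom := E.injective
  obtain ⟨hc, hexp⟩ := h (H'.map E.toMonoidHom) (by
    rw [Subgroup.card_map_of_injective hinj]; exact hH')
  constructor
  · refine ⟨⟨fun a b => ?_⟩⟩
    have := hc.is_comm.comm ⟨E a, a, a.2, rfl⟩ ⟨E b, b, b.2, rfl⟩
    apply Subtype.ext
    apply E.injective
    have h2 : E a * E b = E b * E a := congrArg Subtype.val this
    rw [Subgroup.coe_mul, Subgroup.coe_mul, map_mul, map_mul]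
    exact h2
  · intro x hx
    apply E.injective
    rw [map_pow, map_one]
    exact hexp _ ⟨x, hx, rfl⟩

end Cfsg.Agent.Lib.H57SsTransport
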