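import Cfsg.Agent.Lib.H57SsDefs2
import Cfsg.Agent.Lib.H57SsCyc

set_option autoImplicit false

/-! Project 5283, piece `WIdx` (pure). -/

namespace Cfsg.Agent.Lib.H57SsWIdx

open Cfsg.Agent.Lib.H57SsDefs2 Cfsg.Agent.Lib.H57SsCyc

theorem mem_W_pi {p : ℕ} [Fact p.Prime] {ι : Type} [Fintype ι] (e : ι → ℕ) (j : ℕ)
    (x : (i : ι) → Multiplicative (ZMod (p ^ e i))) :
    x ∈ W p ((i : ι) → Multiplicative (ZMod (p ^ e i))) j ↔
      ∀ i, x i ^ p = 1 ∧ (e i ≤ j → x i = 1) := by
  rw [mem_W]
  constructor
  · rintro ⟨h1, y, hy⟩ i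
    exact (cyc_iff (e i) j (x i)).1 ⟨by simpa using congrFun h1 i, y i, by
      simpa using congrFun hy i⟩
  · intro h
    have h2 : ∀ i, x i ^ p = 1 ∧ ∃ y, y ^ (p ^ j) = x i := fun i => (cyc_iff (e i) j (x i)).2 (h i)
    choose h3 y hy using h2
    exact ⟨funext fun i => by simpa using h3 i, y, funext fun i => by simpa using hy i⟩

theorem exists_W_bot {p : ℕ} [Fact p.Prime] {ι : Type} [Fintype ι] (e : ι → ℕ) :
    ∃ N, W p ((i : ι) → Multiplicative (ZMod (p ^ e i))) N = ⊥ := by
  refine ⟨∑ i, e i, ?_⟩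
  rw [eq_bot_iff]
  intro x hx
  rw [mem_W_pi] at hx
  rw [Subgroup.mem_bot]
  funext i
  exact (hx i).2 (Finset.single_le_sum (f := e) (fun _ _ => Nat.zero_le _) (Finset.mem_univ i))

theorem relIndex_W_le {p : ℕ} [Fact p.Prime] {ι : Type} [Fintype ι] (e : ι → ℕ)
    (he : Function.Injective e) (j : ℕ) :
    (W p ((i : ι) → Multiplicative (ZMod (p ^ e i))) (j + 1)).relIndex
      (W p ((i : ι) → Multiplicative (ZMod (p ^ e i))) j) ≤ p := by
  classical
  have hp : p.Prime := Fact.out
  by_cases hex : ∃ i, e i = j + 1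
  · obtain ⟨i₀, hi₀⟩ := hex
    -- the evaluation homomorphism
    let T : Subgroup (Multiplicative (ZMod (p ^ e i₀))) :=
      { carrier := {c | c ^ p = 1}
        one_mem' := one_pow _
        mul_mem' := by
          intro a b ha hb
          show (a * b) ^ p = 1
          rw [mul_pow, show a ^ p = 1 from ha, show b ^ p = 1 from hb, one_mul]
        inv_mem' := by
          intro a ha
          show (a⁻¹) ^ p = 1
          rw [inv_pow, show a ^ p = 1 from ha, inv_one] }
    let f : (W p ((i : ι) → Multiplicative (ZMod (p ^ e i))) j) →* T :=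
      { toFun := fun x => ⟨x.1 i₀, (((mem_W_pi e j x.1).1 x.2) i₀).1⟩
        map_one' := rfl
        map_mul' := fun _ _ => rfl }
    have hker : f.ker = (W p ((i : ι) → Multiplicative (ZMod (p ^ e i))) (j + 1)).subgroupOf
        (W p ((i : ι) → Multiplicative (ZMod (p ^ e i))) j) := by
      ext x
      rw [MonoidHom.mem_ker, Subgroup.mem_subgroupOf, mem_W_pi]
      have hx := (mem_W_pi e j x.1).1 x.2
      constructor
      · intro h i
        refine ⟨(hx i).1, fun hle => ?_⟩
        rcases Nat.lt_or_ge j (e i) with hlt | hge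
        · have : e i = e i₀ := by omega
          have hii : i = i₀ := he this
          subst hii
          exact congrArg Subtype.val h
        · exact (hx i).2 hge
      · intro h
        exact Subtype.ext ((h i₀).2 hi₀.le)
    have hT : Nat.card T ≤ p := card_omega (e i₀)
    have h1 : (W p ((i : ι) → Multiplicative (ZMod (p ^ e i))) (j + 1)).relIndex
        (W p ((i : ι) → Multiplicative (ZMod (p ^ e i))) j) = Nat.card f.range := by
      rw [Subgroup.relIndex, ← hker, Subgroup.index_ker]
    rw [h1]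
    have : Finite T := by
      have : NeZero (p ^ e i₀) := ⟨(pow_pos hp.pos _).ne'⟩
      infer_instance
    exact (Nat.card_le_card_of_injective _ (Subtype.val_injective)).trans hT
  · have heq : W p ((i : ι) → Multiplicative (ZMod (p ^ e i))) (j + 1)
        = W p ((i : ι) → Multiplicative (ZMod (p ^ e i))) j := by
      ext x
      rw [mem_W_pi, mem_W_pi]
      constructor
      · intro h i
        exact ⟨(h i).1, fun hle => (h i).2 (by omega)⟩
      · intro h i
        refine ⟨(h i).1, fun hle => (h i).2 ?_⟩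
        have : e i ≠ j + 1 := fun h' => hex ⟨i, h'⟩
        omega
    rw [heq, Subgroup.relIndex_self]
    exact hp.one_lt.le

end Cfsg.Agent.Lib.H57SsWIdx
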