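import Mathlib
import Cfsg.Agent.Lib.Helper58SylDefs

/-!
PROJECT 2648 (row S2648): a Sylow 2-subgroup of `Sp_2n(q)`, `q` odd, has derived length `log₂(2n) + 1`.  Vocabulary.
`ds H i`: the derived series of a subgroup `H`, computed in the ambient group.
For wreath data `W : WD G D₀ k` (`Helper58SylDefs`) and `I ⊆ Fin k`: `SI W I` = the elements `B d * Pm π` with `d`, `π` supported in `I`.
-/

set_option autoImplicit false

namespace Cfsg.Agent.Lib.H58DlDefs

open Cfsg.Agent.Lib.Helper58SylDefs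

/-- derived series of a subgroup, computed in the ambient group -/
def ds {G : Type*} [Group G] (H : Subgroup G) : ℕ → Subgroup G
  | 0 => H
  | (i + 1) => ⁅ds H i, ds H i⁆

theorem ds_zero {G : Type*} [Group G] (H : Subgroup G) : ds H 0 = H := rfl

theorem ds_succ {G : Type*} [Group G] (H : Subgroup G) (i : ℕ) : ds H (i + 1) = ⁅ds H i, ds H i⁆ := rfl

/-- functions supported in `I` -/
def BI (D₀ : Type*) [Group D₀] {k : ℕ} (I : Set (Fin k)) : Subgroup (Fin k → D₀) where
  carrier := {d | ∀ i, i ∉ I → d i = 1}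
  one_mem' := fun _ _ => rfl
  mul_mem' := by
    intro a b ha hb i hi
    rw [Pi.mul_apply, ha i hi, hb i hi, one_mul]
  inv_mem' := by
    intro a ha i hi
    rw [Pi.inv_apply, ha i hi, inv_one]

theorem mem_BI {D₀ : Type*} [Group D₀] {k : ℕ} (I : Set (Fin k)) (d : Fin k → D₀) :
    d ∈ BI D₀ I ↔ ∀ i, i ∉ I → d i = 1 := Iff.rfl

/-- permutations supported in `I` -/
def PI {k : ℕ} (I : Set (Fin k)) : Subgroup (Equiv.Perm (Fin k)) where
  carrier := {π | ∀ i, i ∉ I → π i = i}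
  one_mem' := fun _ _ => rfl
  mul_mem' := by
    intro a b ha hb i hi
    rw [Equiv.Perm.mul_apply, hb i hi, ha i hi]
  inv_mem' := by
    intro a ha i hi
    rw [Equiv.Perm.inv_eq_iff_eq, ha i hi]

theorem mem_PI {k : ℕ} (I : Set (Fin k)) (π : Equiv.Perm (Fin k)) :
    π ∈ PI I ↔ ∀ i, i ∉ I → π i = i := Iff.rfl

/-- the part of the wreath product supported in `I` -/
def SI {G D₀ : Type*} [Group G] [Group D₀] {k : ℕ} (W : WD G D₀ k) (I : Set (Fin k)) : Subgroup G :=
  (BI D₀ I).map W.B ⊔ (PI I).map W.Pm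

/-- the initial segment `{0, …, 2^j - 1}` -/
def Iv (k j : ℕ) : Set (Fin k) := {x | x.val < 2 ^ j}

theorem mem_Iv (k j : ℕ) (x : Fin k) : x ∈ Iv k j ↔ x.val < 2 ^ j := Iff.rfl

end Cfsg.Agent.Lib.H58DlDefs
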