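import Mathlib
import Cfsg.Agent.Lib.H58DlDefs

/-! PROJECT 2648 (row S2648, 3u), piece `DsBasic`.  Overview: notes/helper58/Dl/README.md.
Basic facts on `ds`.
-/

set_option autoImplicit false

namespace Cfsg.Agent.Lib.H58DlDsBasic

open Cfsg.Agent.Lib.Helper58SylDefs Cfsg.Agent.Lib.H58DlDefs

variable {G G' : Type*} [Group G] [Group G']

theorem ds_le (H : Subgroup G) (i : ℕ) : ds H i ≤ H := by
  induction i with
  | zero => exact le_refl _
  | succ i ih =>
    rw [ds_succ]
    refine le_trans (Subgroup.commutator_mono ih ih) ?_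
    rw [Subgroup.commutator_le]
    intro a ha b hb
    rw [commutatorElement_def]
    exact H.mul_mem (H.mul_mem (H.mul_mem ha hb) (H.inv_mem ha)) (H.inv_mem hb)

theorem ds_mono {H K : Subgroup G} (h : H ≤ K) (i : ℕ) : ds H i ≤ ds K i := by
  induction i with
  | zero => exact h
  | succ i ih =>
    rw [ds_succ, ds_succ]
    exact Subgroup.commutator_mono ih ih

theorem ds_map (f : G →* G') (H : Subgroup G) (i : ℕ) : (ds H i).map f = ds (H.map f) i := by
  induction i with
  | zero => rfl
  | succ i ih =>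
    rw [ds_succ, ds_succ, Subgroup.map_commutator, ih]

theorem ds_succ' (H : Subgroup G) (i : ℕ) : ds H (i + 1) = ds ⁅H, H⁆ i := by
  induction i with
  | zero => rfl
  | succ i ih =>
    rw [ds_succ, ih, ds_succ]

theorem ds_add (H : Subgroup G) (i j : ℕ) : ds H (i + j) = ds (ds H i) j := by
  induction j with
  | zero => rfl
  | succ j ih =>
    rw [← add_assoc, ds_succ, ih, ds_succ]

theorem ds_bot (i : ℕ) : ds (⊥ : Subgroup G) i = ⊥ :=
  le_antisymm (ds_le _ _) bot_le

theorem ds_bot_of_le {H : Subgroup G} {i j : ℕ} (hij : i ≤ j) (h : ds H i = ⊥) : ds H j = ⊥ := by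
  obtain ⟨k, rfl⟩ := Nat.exists_eq_add_of_le hij
  rw [ds_add, h, ds_bot]

theorem map_derivedSeries (H : Subgroup G) (i : ℕ) : (derivedSeries ↥H i).map H.subtype = ds H i := by
  induction i with
  | zero =>
    rw [derivedSeries_zero, ds_zero, ← MonoidHom.range_eq_map, Subgroup.range_subtype]
  | succ i ih =>
    rw [derivedSeries_succ, ds_succ, Subgroup.map_commutator, ih]

theorem derivedSeries_eq_bot_iff (H : Subgroup G) (i : ℕ) : derivedSeries ↥H i = ⊥ ↔ ds H i = ⊥ := by
  rw [← map_derivedSeries, Subgroup.map_eq_bot_iff_of_injective _ H.subtype_injective]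

end Cfsg.Agent.Lib.H58DlDsBasic
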