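import Mathlib
import Cfsg.Agent.Lib.H58DlDefs

/-! PROJECT 2648 (row S2648, 3u), piece `SuppForm`.  Overview: notes/helper58/Dl/README.md.
Normal form of the elements supported in `I`.
-/

set_option autoImplicit false

namespace Cfsg.Agent.Lib.H58DlSuppForm

open Cfsg.Agent.Lib.Helper58SylDefs Cfsg.Agent.Lib.H58DlDefs

variable {G D₀ : Type*} [Group G] [Group D₀] {k : ℕ}

theorem Pm_mul_B (W : WD G D₀ k) (π : Equiv.Perm (Fin k)) (d : Fin k → D₀) :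
    W.Pm π * W.B d = W.B (fun i => d (π⁻¹ i)) * W.Pm π := by
  rw [← W.conj π d]; group

theorem shift_mem_BI (I : Set (Fin k)) (π : Equiv.Perm (Fin k)) (hπ : π ∈ PI I) (d : Fin k → D₀)
    (hd : d ∈ BI D₀ I) : (fun i => d (π⁻¹ i)) ∈ BI D₀ I := by
  intro i hi
  have h1 : π⁻¹ i = i := (PI I).inv_mem hπ i hi
  show d (π⁻¹ i) = 1
  rw [h1]; exact hd i hi

/-- the set of normal forms, as a subgroup -/
def NF (W : WD G D₀ k) (I : Set (Fin k)) : Subgroup G where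
  carrier := {g | ∃ d ∈ BI D₀ I, ∃ π ∈ PI I, g = W.B d * W.Pm π}
  one_mem' := ⟨1, Subgroup.one_mem _, 1, Subgroup.one_mem _, by rw [map_one, map_one, one_mul]⟩
  mul_mem' := by
    rintro _ _ ⟨d, hd, π, hπ, rfl⟩ ⟨d', hd', π', hπ', rfl⟩
    refine ⟨d * (fun i => d' (π⁻¹ i)), Subgroup.mul_mem _ hd (shift_mem_BI I π hπ d' hd'),
      π * π', Subgroup.mul_mem _ hπ hπ', ?_⟩
    rw [map_mul, map_mul]
    calc W.B d * W.Pm π * (W.B d' * W.Pm π') = W.B d * (W.Pm π * W.B d') * W.Pm π' := by group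
      _ = W.B d * W.B (fun i => d' (π⁻¹ i)) * (W.Pm π * W.Pm π') := by rw [Pm_mul_B]; group
  inv_mem' := by
    rintro _ ⟨d, hd, π, hπ, rfl⟩
    refine ⟨fun i => d⁻¹ ((π⁻¹)⁻¹ i), shift_mem_BI I π⁻¹ (Subgroup.inv_mem _ hπ) d⁻¹
      (Subgroup.inv_mem _ hd), π⁻¹, Subgroup.inv_mem _ hπ, ?_⟩
    rw [← Pm_mul_B, map_inv, map_inv, mul_inv_rev]

theorem mem_SI_iff (W : WD G D₀ k) (I : Set (Fin k)) (g : G) :
    g ∈ SI W I ↔ ∃ d ∈ BI D₀ I, ∃ π ∈ PI I, g = W.B d * W.Pm π := by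
  constructor
  · intro hg
    have hle : SI W I ≤ NF W I := by
      refine sup_le ?_ ?_
      · rintro _ ⟨d, hd, rfl⟩
        exact ⟨d, hd, 1, Subgroup.one_mem _, by rw [map_one, mul_one]⟩
      · rintro _ ⟨π, hπ, rfl⟩
        exact ⟨1, Subgroup.one_mem _, π, hπ, by rw [map_one, one_mul]⟩
    exact hle hg
  · rintro ⟨d, hd, π, hπ, rfl⟩
    exact Subgroup.mul_mem _ (Subgroup.mem_sup_left (Subgroup.mem_map_of_mem _ hd))
      (Subgroup.mem_sup_right (Subgroup.mem_map_of_mem _ hπ))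

end Cfsg.Agent.Lib.H58DlSuppForm
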