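import Mathlib
import Cfsg.Agent.Lib.H58DlDefs
import Cfsg.Agent.Lib.H58DlSuppForm

/-! PROJECT 2648 (row S2648, 3u), piece `SuppConj`.  Overview: notes/helper58/Dl/README.md.
Conjugation by `Pm τ` moves the support.
-/

set_option autoImplicit false

namespace Cfsg.Agent.Lib.H58DlSuppConj

open Cfsg.Agent.Lib.Helper58SylDefs Cfsg.Agent.Lib.H58DlDefs
open Cfsg.Agent.Lib.H58DlSuppForm

variable {G D₀ : Type*} [Group G] [Group D₀] {k : ℕ}

theorem SI_conj (W : WD G D₀ k) (I : Set (Fin k)) (τ : Equiv.Perm (Fin k)) (g : G) (hg : g ∈ SI W I) :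
    W.Pm τ * g * (W.Pm τ)⁻¹ ∈ SI W (τ '' I) := by
  obtain ⟨d, hd, π, hπ, rfl⟩ := (mem_SI_iff W I g).1 hg
  rw [mem_SI_iff]
  have hni : ∀ i, i ∉ τ '' I → τ⁻¹ i ∉ I := by
    intro i hi h
    exact hi ⟨τ⁻¹ i, h, by simp⟩
  refine ⟨fun i => d (τ⁻¹ i), ?_, τ * π * τ⁻¹, ?_, ?_⟩
  · intro i hi
    exact hd _ (hni i hi)
  · intro i hi
    rw [Equiv.Perm.mul_apply, Equiv.Perm.mul_apply, hπ _ (hni i hi)]
    simp
  · rw [← W.conj τ d, map_mul, map_mul, map_inv]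
    group

theorem SI_mono (W : WD G D₀ k) {I I' : Set (Fin k)} (h : I ⊆ I') : SI W I ≤ SI W I' := by
  refine sup_le_sup (Subgroup.map_mono ?_) (Subgroup.map_mono ?_)
  · intro d hd i hi
    exact hd i (fun hh => hi (h hh))
  · intro π hπ i hi
    exact hπ i (fun hh => hi (h hh))

theorem Pm_mem_SI (W : WD G D₀ k) (I : Set (Fin k)) (π : Equiv.Perm (Fin k)) (h : π ∈ PI I) :
    W.Pm π ∈ SI W I :=
  Subgroup.mem_sup_right (Subgroup.mem_map_of_mem _ h)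

theorem B_mem_SI (W : WD G D₀ k) (I : Set (Fin k)) (d : Fin k → D₀) (h : d ∈ BI D₀ I) :
    W.B d ∈ SI W I :=
  Subgroup.mem_sup_left (Subgroup.mem_map_of_mem _ h)

end Cfsg.Agent.Lib.H58DlSuppConj
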