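import Mathlib
import Cfsg.Agent.Lib.H58DlDefs
import Cfsg.Agent.Lib.H58DlDsBasic
import Cfsg.Agent.Lib.H58DlSuppConj

/-! PROJECT 2648 (row S2648, 3u), piece `Base`.  Overview: notes/helper58/Dl/README.md.
Start of the chain: `D` in coordinate `0`.
-/

set_option autoImplicit false

namespace Cfsg.Agent.Lib.H58DlBase

open Cfsg.Agent.Lib.Helper58SylDefs Cfsg.Agent.Lib.H58DlDefs
open Cfsg.Agent.Lib.H58DlDsBasic
open Cfsg.Agent.Lib.H58DlSuppConj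

variable {G D₀ : Type*} [Group G] [Group D₀] {k : ℕ}

theorem base (W : WD G D₀ k) (D : Subgroup D₀) (hD : IsPGroup 2 ↥D) (hD1 : ds D 1 ≠ ⊥) (hk : 1 ≤ k) :
    ∃ A : Subgroup G, IsPGroup 2 ↥A ∧ A ≤ SI W (Iv k 0) ∧ ds A 1 ≠ ⊥ := by
  obtain ⟨i₀, hi₀⟩ : ∃ i₀ : Fin k, i₀.val = 0 := ⟨⟨0, hk⟩, rfl⟩
  obtain ⟨f, hf⟩ : ∃ f : D₀ →* G, f = W.B.comp (MonoidHom.mulSingle (fun _ : Fin k => D₀) i₀) :=
    ⟨_, rfl⟩
  have hinj : Function.Injective f := by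
    rw [injective_iff_map_eq_one]
    intro x hx
    rw [hf, MonoidHom.comp_apply] at hx
    have h1 : W.B (MonoidHom.mulSingle (fun _ : Fin k => D₀) i₀ x) * W.Pm 1 = 1 := by
      rw [map_one, mul_one, hx]
    have h2 := (W.inj _ _ h1).1
    have h3 := congrFun h2 i₀
    simpa using h3
  refine ⟨D.map f, hD.map f, ?_, ?_⟩
  · rintro _ ⟨x, _, rfl⟩
    rw [hf, MonoidHom.comp_apply]
    apply B_mem_SI
    intro i hi
    have hne : i ≠ i₀ := by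
      rintro rfl
      apply hi
      rw [mem_Iv, hi₀]; norm_num
    rw [MonoidHom.mulSingle_apply, Pi.mulSingle_eq_of_ne hne]
  · rw [← ds_map, Ne, Subgroup.map_eq_bot_iff_of_injective _ hinj]
    exact hD1

end Cfsg.Agent.Lib.H58DlBase
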