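import Mathlib
import Cfsg.Agent.Lib.H58DlDefs
import Cfsg.Agent.Lib.H58DlDsBasic

/-! PROJECT 2648 (row S2648, 3u), piece `StepD`.  Overview: notes/helper58/Dl/README.md.
(60 min, PURE group theory.)  `H := (A ⊔ A') ⊔ zpowers t`, `A' = A.map (conj t)`.  For each `i` let `S i := {x ∈ A | ∃ y ∈ A', x * y ∈ ds H (i + 1)}`.  It is a subgroup of `G` (`(x y)(x' y') = (x x')(y y')` and `(x y)⁻¹ = x⁻¹ y⁻¹`, as `A'` commutes with `A` elementwise by `hc`).
Claim `ds A i ≤ S i`, by induction.  `i = 0`: for `x ∈ A` take `y = t * x⁻¹ * t⁻¹`: `x * y = ⁅x, t⁆ ∈ ⁅H, H⁆ = ds H 1`.  Step: for `x, x' ∈ S i` with `y, y'`: `⁅x y, x' y'⁆ = ⁅x, x'⁆ * ⁅y, y'⁆` (everything in `A` commutes with everything in `A'`), it is in `ds H (i + 2)`, `⁅y, y'⁆ ∈ A'`: so `⁅x, x'⁆ ∈ S (i+1)`;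
hence `ds A (i+1) = ⁅ds A i, ds A i⁆ ≤ ⁅S i, S i⁆ ≤ S (i+1)` (`Subgroup.commutator_mono`, `Subgroup.commutator_le`).
Conclusion: `1 ≠ x ∈ ds A i` (`Subgroup.ne_bot_iff_exists_ne_one`/`Subgroup.eq_bot_iff_forall`), `x * y ∈ ds H (i+1)`; if `x * y = 1` then `x = y⁻¹ ∈ A ⊓ A' = ⊥`.
-/

set_option autoImplicit false

namespace Cfsg.Agent.Lib.H58DlStepD

open Cfsg.Agent.Lib.Helper58SylDefs Cfsg.Agent.Lib.H58DlDefs
open Cfsg.Agent.Lib.H58DlDsBasic
open scoped commutatorElement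

theorem comm_id {G : Type*} [Group G] {x x' y y' : G} (h1 : Commute x y) (h2 : Commute x y')
    (h3 : Commute x' y) (h4 : Commute x' y') : ⁅x * y, x' * y'⁆ = ⁅x, x'⁆ * ⁅y, y'⁆ := by
  rw [commutatorElement_def, commutatorElement_def, commutatorElement_def, h1.mul_inv, h4.mul_inv]
  rw [Commute.mul_mul_mul_comm h3.symm x y']
  rw [Commute.mul_mul_mul_comm ((h1.symm.mul_left h2.symm).inv_right) (x * x') y⁻¹]
  rw [Commute.mul_mul_mul_comm (((h3.symm.mul_left h4.symm).mul_left h3.symm.inv_left).inv_right)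
    (x * x' * x⁻¹) y'⁻¹]

theorem step_ds {G : Type*} [Group G] (A : Subgroup G) (t : G)
    (hc : ∀ a ∈ A, ∀ b ∈ A, a * (t * b * t⁻¹) = (t * b * t⁻¹) * a)
    (hi : A ⊓ A.map (MulAut.conj t).toMonoidHom = ⊥) (i : ℕ) (h : ds A i ≠ ⊥) :
    ds ((A ⊔ A.map (MulAut.conj t).toMonoidHom) ⊔ Subgroup.zpowers t) (i + 1) ≠ ⊥ := by
  obtain ⟨A', hA'⟩ : ∃ A' : Subgroup G, A' = A.map (MulAut.conj t).toMonoidHom := ⟨_, rfl⟩
  obtain ⟨H, hH⟩ : ∃ H : Subgroup G, H = (A ⊔ A') ⊔ Subgroup.zpowers t := ⟨_, rfl⟩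
  rw [← hA'] at hi ⊢
  rw [← hH]
  have comm : ∀ a ∈ A, ∀ y ∈ A', Commute a y := by
    intro a ha y hy
    rw [hA'] at hy
    obtain ⟨b, hb, rfl⟩ := hy
    exact hc a ha b hb
  have hAH : A ≤ H := by rw [hH]; exact le_sup_left.trans le_sup_left
  have htH : t ∈ H := by rw [hH]; exact Subgroup.mem_sup_right (Subgroup.mem_zpowers t)
  let S : ℕ → Subgroup G := fun i =>
    { carrier := {x | x ∈ A ∧ ∃ y ∈ A', x * y ∈ ds H (i + 1)}
      one_mem' := ⟨A.one_mem, 1, A'.one_mem, by rw [one_mul]; exact one_mem _⟩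
      mul_mem' := by
        rintro x x' ⟨hx, y, hy, hxy⟩ ⟨hx', y', hy', hxy'⟩
        refine ⟨mul_mem hx hx', y * y', mul_mem hy hy', ?_⟩
        rw [Commute.mul_mul_mul_comm (comm x' hx' y hy) x y']
        exact mul_mem hxy hxy'
      inv_mem' := by
        rintro x ⟨hx, y, hy, hxy⟩
        refine ⟨inv_mem hx, y⁻¹, inv_mem hy, ?_⟩
        rw [← (comm x hx y hy).mul_inv]
        exact inv_mem hxy }
  have hS : ∀ i x, x ∈ S i ↔ (x ∈ A ∧ ∃ y ∈ A', x * y ∈ ds H (i + 1)) := fun _ _ => Iff.rfl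
  have claim : ∀ i, ds A i ≤ S i := by
    intro i
    induction i with
    | zero =>
      intro x hx
      have hxA : x ∈ A := hx
      rw [hS]
      refine ⟨hxA, t * x⁻¹ * t⁻¹, ?_, ?_⟩
      · rw [hA']
        exact ⟨x⁻¹, inv_mem hxA, rfl⟩
      · have e : x * (t * x⁻¹ * t⁻¹) = ⁅x, t⁆ := by
          rw [commutatorElement_def]; group
        rw [e]
        exact Subgroup.commutator_mem_commutator (hAH hxA) htH
    | succ i ih =>
      rw [ds_succ]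
      refine (Subgroup.commutator_mono ih ih).trans ?_
      rw [Subgroup.commutator_le]
      rintro x ⟨hx, y, hy, hxy⟩ x' ⟨hx', y', hy', hxy'⟩
      rw [hS]
      refine ⟨?_, ⁅y, y'⁆, ?_, ?_⟩
      · rw [commutatorElement_def]
        exact mul_mem (mul_mem (mul_mem hx hx') (inv_mem hx)) (inv_mem hx')
      · rw [commutatorElement_def]
        exact mul_mem (mul_mem (mul_mem hy hy') (inv_mem hy)) (inv_mem hy')
      · rw [← comm_id (comm x hx y hy) (comm x hx y' hy') (comm x' hx' y hy) (comm x' hx' y' hy')]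
        exact Subgroup.commutator_mem_commutator hxy hxy'
  intro hbot
  apply h
  rw [Subgroup.eq_bot_iff_forall]
  intro x hx
  obtain ⟨hxA, y, hy, hxy⟩ := claim i hx
  rw [hbot, Subgroup.mem_bot] at hxy
  have hxy' : x = y⁻¹ := eq_inv_of_mul_eq_one_left hxy
  have : x ∈ A ⊓ A' := Subgroup.mem_inf.2 ⟨hxA, by rw [hxy']; exact inv_mem hy⟩
  rw [hi, Subgroup.mem_bot] at this
  exact this

end Cfsg.Agent.Lib.H58DlStepD
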