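import Mathlib
import Cfsg.Agent.Lib.H58DlDefs

/-! PROJECT 2648 (row S2648, 3u), piece `StepP`.  Overview: notes/helper58/Dl/README.md.
`(A × A^t) ⋊ ⟨t⟩` is a 2-group.
-/

set_option autoImplicit false

namespace Cfsg.Agent.Lib.H58DlStepP

open Cfsg.Agent.Lib.Helper58SylDefs Cfsg.Agent.Lib.H58DlDefs

theorem step_pgroup {G : Type*} [Group G] (A : Subgroup G) (t : G) (ht : t ^ 2 = 1) (hA : IsPGroup 2 ↥A)
    (hc : ∀ a ∈ A, ∀ b ∈ A, a * (t * b * t⁻¹) = (t * b * t⁻¹) * a) :
    IsPGroup 2 ↥((A ⊔ A.map (MulAut.conj t).toMonoidHom) ⊔ Subgroup.zpowers t) := by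
  have hA' : IsPGroup 2 ↥(A.map (MulAut.conj t).toMonoidHom) := hA.map _
  have hn1 : A.map (MulAut.conj t).toMonoidHom ≤ Subgroup.normalizer (A : Set G) := by
    refine le_trans ?_ (Subgroup.centralizer_le_normalizer (A : Set G))
    rintro _ ⟨b, hb, rfl⟩
    rw [Subgroup.mem_centralizer_iff]
    intro a ha
    exact hc a ha b hb
  have h1 : IsPGroup 2 ↥(A ⊔ A.map (MulAut.conj t).toMonoidHom) :=
    IsPGroup.to_sup_of_normal_left' hA hA' hn1
  have htt : t⁻¹ = t := by
    rw [inv_eq_iff_mul_eq_one, ← pow_two, ht]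
  have hz : IsPGroup 2 ↥(Subgroup.zpowers t) := by
    rintro ⟨x, hx⟩
    obtain ⟨k, rfl⟩ := Subgroup.mem_zpowers_iff.1 hx
    refine ⟨1, ?_⟩
    apply Subtype.ext
    simp only [pow_one, Subgroup.coe_pow, Subgroup.coe_one]
    rw [← zpow_natCast, ← zpow_mul, mul_comm, zpow_mul, zpow_natCast, ht, one_zpow]
  have hmap : (A ⊔ A.map (MulAut.conj t).toMonoidHom).map (MulAut.conj t).toMonoidHom
      = A ⊔ A.map (MulAut.conj t).toMonoidHom := by
    rw [Subgroup.map_sup, Subgroup.map_map]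
    have : (MulAut.conj t).toMonoidHom.comp (MulAut.conj t).toMonoidHom = MonoidHom.id G := by
      ext x
      simp only [MonoidHom.comp_apply, MulEquiv.coe_toMonoidHom, MulAut.conj_apply, MonoidHom.id_apply]
      rw [htt]
      have h2 : t * t = 1 := by rw [← pow_two, ht]
      calc t * (t * x * t) * t = (t * t) * x * (t * t) := by group
        _ = x := by rw [h2, one_mul, mul_one]
    rw [this, Subgroup.map_id, sup_comm]
  have hn2 : Subgroup.zpowers t ≤ Subgroup.normalizer ((A ⊔ A.map (MulAut.conj t).toMonoidHom : Subgroup G) : Set G) := by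
    rw [Subgroup.zpowers_le, Subgroup.mem_normalizer_iff]
    intro h
    constructor
    · intro hh
      rw [← hmap]
      exact ⟨h, hh, rfl⟩
    · intro hh
      rw [← hmap] at hh
      obtain ⟨y, hy, hyy⟩ := hh
      have : y = h := (MulAut.conj t).injective hyy
      rw [← this]; exact hy
  exact IsPGroup.to_sup_of_normal_left' h1 hz hn2

end Cfsg.Agent.Lib.H58DlStepP
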