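import Mathlib
import Cfsg.Agent.Lib.H58DlDefs
import Cfsg.Agent.Lib.H58DlSuppForm

/-! PROJECT 2648 (row S2648, 3u), piece `SuppComm`. -/

set_option autoImplicit false

namespace Cfsg.Agent.Lib.H58DlSuppComm

open Cfsg.Agent.Lib.Helper58SylDefs Cfsg.Agent.Lib.H58DlDefs
open Cfsg.Agent.Lib.H58DlSuppForm

variable {G D₀ : Type*} [Group G] [Group D₀] {k : ℕ}

theorem Pm_comm_B (W : WD G D₀ k) (I I' : Set (Fin k)) (hI : Disjoint I I')
    (π : Equiv.Perm (Fin k)) (hπ : π ∈ PI I) (d : Fin k → D₀) (hd : d ∈ BI D₀ I') :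
    Commute (W.Pm π) (W.B d) := by
  have h1 := W.conj π d
  have h2 : (fun i => d (π⁻¹ i)) = d := by
    funext i
    by_cases hi : π⁻¹ i = i
    · rw [hi]
    · have hiI : i ∈ I := by
        by_contra hcon
        apply hi
        rw [Equiv.Perm.inv_eq_iff_eq, hπ i hcon]
      have hiI2 : π⁻¹ i ∈ I := by
        by_contra hcon
        apply hi
        have := hπ _ hcon
        have h3 : π (π⁻¹ i) = i := by simp
        rw [h3] at this
        exact this.symm
      rw [hd i (Set.disjoint_left.1 hI hiI), hd _ (Set.disjoint_left.1 hI hiI2)]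
  rw [h2] at h1
  exact mul_inv_eq_iff_eq_mul.1 h1

theorem SI_comm (W : WD G D₀ k) (I I' : Set (Fin k)) (hI : Disjoint I I') :
    ∀ g ∈ SI W I, ∀ g' ∈ SI W I', g * g' = g' * g := by
  intro g hg g' hg'
  obtain ⟨d, hd, π, hπ, rfl⟩ := (mem_SI_iff W I g).1 hg
  obtain ⟨d', hd', π', hπ', rfl⟩ := (mem_SI_iff W I' g').1 hg'
  have c1 : Commute (W.B d) (W.B d') := by
    show W.B d * W.B d' = W.B d' * W.B d
    rw [← map_mul, ← map_mul]
    congr 1
    funext i
    by_cases hi : i ∈ I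
    · rw [Pi.mul_apply, Pi.mul_apply, hd' i (Set.disjoint_left.1 hI hi), mul_one, one_mul]
    · rw [Pi.mul_apply, Pi.mul_apply, hd i hi, mul_one, one_mul]
  have c2 : Commute (W.Pm π) (W.Pm π') := by
    have hdis : Equiv.Perm.Disjoint π π' := by
      intro i
      by_cases hi : i ∈ I
      · right; exact hπ' i (Set.disjoint_left.1 hI hi)
      · left; exact hπ i hi
    show W.Pm π * W.Pm π' = W.Pm π' * W.Pm π
    rw [← map_mul, ← map_mul, hdis.commute.eq]
  have c3 : Commute (W.Pm π) (W.B d') := Pm_comm_B W I I' hI π hπ d' hd'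
  have c4 : Commute (W.B d) (W.Pm π') := (Pm_comm_B W I' I hI.symm π' hπ' d hd).symm
  exact ((c1.mul_right c4).mul_left (c3.mul_right c2)).eq

end Cfsg.Agent.Lib.H58DlSuppComm
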