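import Mathlib
import Cfsg.Agent.Lib.H58DlDefs
import Cfsg.Agent.Lib.H58DlSuppForm

/-! PROJECT 2648 (row S2648, 3u), piece `SuppInf`.  Overview: notes/helper58/Dl/README.md.
Disjoint supports meet trivially.
-/

set_option autoImplicit false

namespace Cfsg.Agent.Lib.H58DlSuppInf

open Cfsg.Agent.Lib.Helper58SylDefs Cfsg.Agent.Lib.H58DlDefs
open Cfsg.Agent.Lib.H58DlSuppForm

variable {G D₀ : Type*} [Group G] [Group D₀] {k : ℕ}

theorem SI_inf (W : WD G D₀ k) (I I' : Set (Fin k)) (hI : Disjoint I I') : SI W I ⊓ SI W I' = ⊥ := by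
  rw [eq_bot_iff]
  rintro g ⟨h1, h2⟩
  obtain ⟨d, hd, π, hπ, rfl⟩ := (mem_SI_iff W I g).1 h1
  obtain ⟨d', hd', π', hπ', he⟩ := (mem_SI_iff W I' _).1 h2
  have h3 : W.B (d'⁻¹ * d) * W.Pm (π * π'⁻¹) = 1 := by
    rw [map_mul, map_mul, map_inv, map_inv]
    calc (W.B d')⁻¹ * W.B d * (W.Pm π * (W.Pm π')⁻¹)
        = (W.B d')⁻¹ * (W.B d * W.Pm π) * (W.Pm π')⁻¹ := by group
      _ = 1 := by rw [he]; group
  obtain ⟨h4, h5⟩ := W.inj _ _ h3
  have h6 : d = d' := by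
    rw [inv_mul_eq_one] at h4; exact h4.symm
  have h7 : π = π' := by
    rw [mul_inv_eq_one] at h5; exact h5
  subst h6; subst h7
  have hd1 : d = 1 := by
    funext i
    by_cases hi : i ∈ I
    · exact hd' i (Set.disjoint_left.1 hI hi)
    · exact hd i hi
  have hπ1 : π = 1 := by
    ext i
    by_cases hi : i ∈ I
    · rw [hπ' i (Set.disjoint_left.1 hI hi)]; rfl
    · rw [hπ i hi]; rfl
  rw [Subgroup.mem_bot, hd1, hπ1, map_one, map_one, one_mul]

end Cfsg.Agent.Lib.H58DlSuppInf
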