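import Mathlib
import Cfsg.Agent.Lib.H58DlDefs

/-! PROJECT 2648 (row S2648, 3u), piece `Tau`.  Overview: notes/helper58/Dl/README.md.
(45 min, PURE Mathlib.)  `f x = if x < 2^j then x + 2^j else if x < 2^(j+1) then x - 2^j else x` on `Fin k` (values `< k` by `h`); `f (f x) = x` (`Function.Involutive.toPerm`; `split_ifs <;> omega` after `Fin.ext`, with `2^(j+1) = 2 * 2^j`: `pow_succ`).
`τ ^ 2 = 1`: `Equiv.ext`.  `Iv k j = {x | x.val < 2 ^ j}` (`mem_Iv`), `PI I = {π | ∀ i ∉ I, π i = i}` (`mem_PI`).  The image of `Iv k j` consists of `x` with `2^j ≤ x < 2^(j+1)`.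
-/

set_option autoImplicit false

namespace Cfsg.Agent.Lib.H58DlTau

open Cfsg.Agent.Lib.Helper58SylDefs Cfsg.Agent.Lib.H58DlDefs

theorem exists_tau (k j : ℕ) (h : 2 ^ (j + 1) ≤ k) : ∃ τ : Equiv.Perm (Fin k), τ ^ 2 = 1 ∧
    τ ∈ PI (Iv k (j + 1)) ∧ Disjoint (Iv k j) (τ '' Iv k j) ∧ τ '' Iv k j ⊆ Iv k (j + 1) := by
  have hp : 2 ^ (j + 1) = 2 * 2 ^ j := by rw [pow_succ]; ring
  obtain ⟨N, hN⟩ : ∃ N, N = 2 ^ j := ⟨_, rfl⟩
  have hNpos : 0 < N := by rw [hN]; positivity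
  have hk : 2 * N ≤ k := by rw [hN, ← hp]; exact h
  let f : Fin k → Fin k := fun x =>
    if h1 : x.val < N then ⟨x.val + N, by omega⟩
    else if h2 : x.val < 2 * N then ⟨x.val - N, by have := x.isLt; omega⟩ else x
  have hf_val : ∀ x : Fin k, (f x).val =
      if x.val < N then x.val + N else if x.val < 2 * N then x.val - N else x.val := by
    intro x
    simp only [f]
    split_ifs <;> rfl
  have hinv : Function.Involutive f := by
    intro x
    apply Fin.ext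
    rw [hf_val, hf_val]
    split_ifs <;> omega
  refine ⟨hinv.toPerm, ?_, ?_, ?_, ?_⟩
  · ext x
    rw [pow_two, Equiv.Perm.mul_apply]
    show ((f (f x) : Fin k) : ℕ) = _
    rw [hinv x]
    rfl
  · intro x hx
    rw [mem_Iv, hp, ← hN] at hx
    apply Fin.ext
    show (f x).val = x.val
    rw [hf_val]
    split_ifs <;> omega
  · rw [Set.disjoint_left]
    rintro x hx ⟨y, hy, rfl⟩
    rw [mem_Iv, ← hN] at hx hy
    have hx' : (f y).val < N := hx
    rw [hf_val, if_pos hy] at hx'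
    omega
  · rintro _ ⟨y, hy, rfl⟩
    rw [mem_Iv, ← hN] at hy
    rw [mem_Iv, hp, ← hN]
    show (f y).val < 2 * N
    rw [hf_val, if_pos hy]
    omega

end Cfsg.Agent.Lib.H58DlTau
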