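import Mathlib
import Cfsg.Agent.Lib.H58DlDefs
import Cfsg.Agent.Lib.H58DlDsBasic
import Cfsg.Agent.Lib.H58DlStepP
import Cfsg.Agent.Lib.H58DlStepD
import Cfsg.Agent.Lib.H58DlSuppComm
import Cfsg.Agent.Lib.H58DlSuppInf
import Cfsg.Agent.Lib.H58DlSuppConj
import Cfsg.Agent.Lib.H58DlTau
import Cfsg.Agent.Lib.H58DlBase

/-! PROJECT 2648 (row S2648, 3u), piece `Chain` (assembly, by helper58). -/

set_option autoImplicit false

namespace Cfsg.Agent.Lib.H58DlChain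

open Cfsg.Agent.Lib.Helper58SylDefs Cfsg.Agent.Lib.H58DlDefs
open Cfsg.Agent.Lib.H58DlDsBasic Cfsg.Agent.Lib.H58DlStepP Cfsg.Agent.Lib.H58DlStepD
open Cfsg.Agent.Lib.H58DlSuppComm Cfsg.Agent.Lib.H58DlSuppInf Cfsg.Agent.Lib.H58DlSuppConj
open Cfsg.Agent.Lib.H58DlTau Cfsg.Agent.Lib.H58DlBase

theorem chain {G D₀ : Type*} [Group G] [Group D₀] {k : ℕ} (W : WD G D₀ k) (D : Subgroup D₀)
    (hD : IsPGroup 2 ↥D) (hD1 : ds D 1 ≠ ⊥) (j : ℕ) (hj : 2 ^ j ≤ k) :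
    ∃ A : Subgroup G, IsPGroup 2 ↥A ∧ A ≤ SI W (Iv k j) ∧ ds A (j + 1) ≠ ⊥ := by
  induction j with
  | zero => exact base W D hD hD1 (by simpa using hj)
  | succ j ih =>
    obtain ⟨A, hA, hAS, hAd⟩ := ih (le_trans (Nat.pow_le_pow_right (by norm_num) (Nat.le_succ j)) hj)
    obtain ⟨τ, hτ2, hτP, hdis, hsub⟩ := exists_tau k j hj
    set t : G := W.Pm τ with ht
    have ht2 : t ^ 2 = 1 := by rw [ht, ← map_pow, hτ2, map_one]
    have hconj : A.map (MulAut.conj t).toMonoidHom ≤ SI W (τ '' Iv k j) := by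
      rintro _ ⟨a, ha, rfl⟩
      exact SI_conj W _ τ a (hAS ha)
    have hc : ∀ a ∈ A, ∀ b ∈ A, a * (t * b * t⁻¹) = (t * b * t⁻¹) * a := by
      intro a ha b hb
      exact SI_comm W _ _ hdis a (hAS ha) _ (SI_conj W _ τ b (hAS hb))
    have hi : A ⊓ A.map (MulAut.conj t).toMonoidHom = ⊥ := by
      rw [eq_bot_iff, ← SI_inf W _ _ hdis]
      exact inf_le_inf hAS hconj
    refine ⟨_, step_pgroup A t ht2 hA hc, ?_, step_ds A t hc hi (j + 1) hAd⟩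
    have hmono : Iv k j ⊆ Iv k (j + 1) := by
      intro x hx
      rw [mem_Iv] at hx ⊢
      exact lt_of_lt_of_le hx (Nat.pow_le_pow_right (by norm_num) (Nat.le_succ j))
    refine sup_le (sup_le (hAS.trans (SI_mono W hmono)) (hconj.trans (SI_mono W hsub))) ?_
    rw [Subgroup.zpowers_le]
    exact Pm_mem_SI W _ τ hτP

end Cfsg.Agent.Lib.H58DlChain
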