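import Mathlib
import Cfsg.Agent.Lib.H58DlDefs
import Cfsg.Agent.Lib.H58DlDsBasic

/-! PROJECT 2648 (row S2648, 3u), piece `Conj`.  Overview: notes/helper58/Dl/README.md.
The derived length of a Sylow subgroup does not depend on the Sylow subgroup.
-/

set_option autoImplicit false

namespace Cfsg.Agent.Lib.H58DlConj

open Cfsg.Agent.Lib.Helper58SylDefs Cfsg.Agent.Lib.H58DlDefs
open Cfsg.Agent.Lib.H58DlDsBasic

variable {G : Type*} [Group G] [Finite G]

theorem sylow_ds_iff (p : ℕ) [Fact p.Prime] (P Q : Sylow p G) (i : ℕ) :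
    ds (P : Subgroup G) i = ⊥ ↔ ds (Q : Subgroup G) i = ⊥ := by
  obtain ⟨g, rfl⟩ := MulAction.exists_smul_eq G P Q
  have h : ((g • P : Sylow p G) : Subgroup G) = (P : Subgroup G).map (MulAut.conj g).toMonoidHom := rfl
  rw [h, ← ds_map, Subgroup.map_eq_bot_iff_of_injective _ (MulAut.conj g).injective]

theorem ds_ne_bot_of_pgroup (p : ℕ) [Fact p.Prime] (A : Subgroup G) (hA : IsPGroup p ↥A) (i : ℕ)
    (h : ds A i ≠ ⊥) (P : Sylow p G) : ds (P : Subgroup G) i ≠ ⊥ := by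
  obtain ⟨Q, hQ⟩ := hA.exists_le_sylow
  intro hP
  have hQ' := (sylow_ds_iff p P Q i).1 hP
  apply h
  rw [eq_bot_iff, ← hQ']
  exact ds_mono hQ i

end Cfsg.Agent.Lib.H58DlConj
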