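import Mathlib
import Cfsg.Agent.Lib.H58DlDefs

/-! PROJECT 2648 (row S2648, 3u), piece `Quat`.  Overview: notes/helper58/Dl/README.md.
Generalised quaternion groups have derived length two.
-/

set_option autoImplicit false

namespace Cfsg.Agent.Lib.H58DlQuat

open Cfsg.Agent.Lib.Helper58SylDefs Cfsg.Agent.Lib.H58DlDefs
open QuaternionGroup
open scoped commutatorElement

/-- the rotation subgroup -/
def rot (n : ℕ) : Subgroup (QuaternionGroup n) where
  carrier := {g | ∃ i, g = a i}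
  one_mem' := ⟨0, rfl⟩
  mul_mem' := by
    rintro _ _ ⟨i, rfl⟩ ⟨j, rfl⟩
    exact ⟨i + j, a_mul_a i j⟩
  inv_mem' := by
    rintro _ ⟨i, rfl⟩
    exact ⟨-i, rfl⟩

theorem comm_mem_rot (n : ℕ) (x y : QuaternionGroup n) : ⁅x, y⁆ ∈ rot n := by
  rw [commutatorElement_def]
  rcases x with i | i <;> rcases y with j | j
  · exact ⟨_, rfl⟩
  · exact ⟨_, rfl⟩
  · exact ⟨_, rfl⟩
  · exact ⟨_, rfl⟩

theorem quat_ds (k : ℕ) (hk : 1 ≤ k) :
    derivedSeries (QuaternionGroup (2 ^ k)) 2 = ⊥ ∧ derivedSeries (QuaternionGroup (2 ^ k)) 1 ≠ ⊥ := by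
  constructor
  · have h1 : derivedSeries (QuaternionGroup (2 ^ k)) 1 ≤ rot (2 ^ k) := by
      rw [derivedSeries_succ, Subgroup.commutator_le]
      intro x _ y _
      exact comm_mem_rot _ x y
    rw [derivedSeries_succ, eq_bot_iff]
    refine le_trans (Subgroup.commutator_mono h1 h1) ?_
    rw [Subgroup.commutator_le]
    rintro _ ⟨i, rfl⟩ _ ⟨j, rfl⟩
    rw [Subgroup.mem_bot, commutatorElement_eq_one_iff_mul_comm, a_mul_a, a_mul_a, add_comm]
  · intro h
    have hm : ⁅(a 1 : QuaternionGroup (2 ^ k)), xa 0⁆ ∈ derivedSeries (QuaternionGroup (2 ^ k)) 1 := by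
      rw [derivedSeries_succ, derivedSeries_zero]
      exact Subgroup.commutator_mem_commutator (Subgroup.mem_top _) (Subgroup.mem_top _)
    rw [h, Subgroup.mem_bot, commutatorElement_eq_one_iff_mul_comm, a_mul_xa, xa_mul_a] at hm
    have h2 : (0 : ZMod (2 * 2 ^ k)) - 1 = 0 + 1 := by
      injection hm
    have h3 : (2 : ZMod (2 * 2 ^ k)) = 0 := by
      have : (2 : ZMod (2 * 2 ^ k)) = (0 + 1) - (0 - 1) := by ring
      rw [this, h2]; ring
    have h4 : ((2 : ℕ) : ZMod (2 * 2 ^ k)) = 0 := by exact_mod_cast h3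
    rw [ZMod.natCast_eq_zero_iff] at h4
    have h5 : 2 * 2 ^ k ≤ 2 := Nat.le_of_dvd (by norm_num) h4
    have h6 : 2 ^ 1 ≤ 2 ^ k := Nat.pow_le_pow_right (by norm_num) hk
    omega

end Cfsg.Agent.Lib.H58DlQuat
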