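import Mathlib
import Cfsg.Agent.Lib.H58DlDefs
import Cfsg.Agent.Lib.H58DlDsBasic
import Cfsg.Agent.Lib.H58DlQuat
import Cfsg.Agent.S0261

/-! PROJECT 2648 (row S2648, 3u), piece `SL2`.  Overview: notes/helper58/Dl/README.md.
Transport of `quat_ds` to the Sylow 2-subgroups of `SL₂(q)`.
-/

set_option autoImplicit false

namespace Cfsg.Agent.Lib.H58DlSL2

open Cfsg.Agent.Lib.Helper58SylDefs Cfsg.Agent.Lib.H58DlDefs
open Cfsg.Agent.Lib.H58DlDsBasic
open Cfsg.Agent.Lib.H58DlQuat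

theorem sl2_ds {F : Type*} [Field F] [Fintype F] (hF : Odd (Fintype.card F))
    (D : Sylow 2 (Matrix.SpecialLinearGroup (Fin 2) F)) :
    ds (D : Subgroup (Matrix.SpecialLinearGroup (Fin 2) F)) 2 = ⊥ ∧
      ds (D : Subgroup (Matrix.SpecialLinearGroup (Fin 2) F)) 1 ≠ ⊥ := by
  obtain ⟨k, hk, ⟨e⟩⟩ := Cfsg.Agent.S0261.result hF D
  obtain ⟨h2, h1⟩ := quat_ds k hk
  have key : ∀ n, derivedSeries ↥(D : Subgroup (Matrix.SpecialLinearGroup (Fin 2) F)) n = ⊥ ↔
      derivedSeries (QuaternionGroup (2 ^ k)) n = ⊥ := by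
    intro n
    rw [← map_derivedSeries_eq (f := e.toMonoidHom) e.surjective n,
      Subgroup.map_eq_bot_iff_of_injective _ e.injective]
  constructor
  · rw [← derivedSeries_eq_bot_iff, key]; exact h2
  · rw [Ne, ← derivedSeries_eq_bot_iff, key]; exact h1

end Cfsg.Agent.Lib.H58DlSL2
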