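import Mathlib
import Cfsg.Agent.Lib.H58DlDefs

/-! PROJECT 2648 (row S2648, 3u), piece `OrbA`.  Overview: notes/helper58/Dl/README.md.
Orbit of an index-two subgroup containing the stabiliser.
-/

set_option autoImplicit false

namespace Cfsg.Agent.Lib.H58DlOrbA

open Cfsg.Agent.Lib.Helper58SylDefs Cfsg.Agent.Lib.H58DlDefs

theorem card_orbit_index_two {T α : Type*} [Group T] [MulAction T α] [Finite T] (M : Subgroup T) (x : α)
    (hM : M.index = 2) (hS : MulAction.stabilizer T x ≤ M) :
    2 * Nat.card (MulAction.orbit ↥M x) = Nat.card (MulAction.orbit T x) := by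
  have h1 : (MulAction.stabilizer T x).index = Nat.card (MulAction.orbit T x) := by
    rw [MulAction.index_stabilizer, Nat.card_coe_set_eq]
  have h2 : (MulAction.stabilizer ↥M x).index = Nat.card (MulAction.orbit ↥M x) := by
    rw [MulAction.index_stabilizer, Nat.card_coe_set_eq]
  have h3 : MulAction.stabilizer ↥M x = (MulAction.stabilizer T x).subgroupOf M := by
    ext g
    rw [MulAction.mem_stabilizer_iff, Subgroup.mem_subgroupOf, MulAction.mem_stabilizer_iff]
    rfl
  have h4 := Subgroup.relIndex_mul_index hS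
  rw [← h1, ← h2, h3, ← h4, hM]
  rw [mul_comm]
  rfl

end Cfsg.Agent.Lib.H58DlOrbA
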