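import Mathlib
import Cfsg.Agent.Lib.H58DlDefs

/-! PROJECT 2648 (row S2648, 3u), piece `OrbB`.  Overview: notes/helper58/Dl/README.md.
A normal subgroup of index two contains the commutator subgroup.
-/

set_option autoImplicit false

namespace Cfsg.Agent.Lib.H58DlOrbB

open Cfsg.Agent.Lib.Helper58SylDefs Cfsg.Agent.Lib.H58DlDefs

theorem commutator_le_of_index_two {T : Type*} [Group T] (M : Subgroup T) [M.Normal] (hM : M.index = 2) :
    ⁅(⊤ : Subgroup T), (⊤ : Subgroup T)⁆ ≤ M := by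
  have hcard : Nat.card (T ⧸ M) = 2 := by rw [← Subgroup.index_eq_card, hM]
  haveI : Fact (Nat.Prime 2) := ⟨Nat.prime_two⟩
  haveI : IsCyclic (T ⧸ M) := isCyclic_of_prime_card hcard
  rw [Subgroup.commutator_le]
  intro a _ b _
  rw [← QuotientGroup.eq_one_iff, commutatorElement_def]
  have hab : (a : T ⧸ M) * (b : T ⧸ M) = (b : T ⧸ M) * (a : T ⧸ M) :=
    IsCyclic.commGroup.mul_comm _ _
  rw [QuotientGroup.mk_mul, QuotientGroup.mk_mul, QuotientGroup.mk_mul, hab, QuotientGroup.mk_inv,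
    QuotientGroup.mk_inv]
  group

end Cfsg.Agent.Lib.H58DlOrbB
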