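import Mathlib
import Cfsg.Agent.Lib.H58DlDefs
import Cfsg.Agent.Lib.H58DlPMax
import Cfsg.Agent.Lib.H58DlOrbA
import Cfsg.Agent.Lib.H58DlOrbB

/-! PROJECT 2648 (row S2648, 3u), piece `Orb`. -/

set_option autoImplicit false

namespace Cfsg.Agent.Lib.H58DlOrb

open Cfsg.Agent.Lib.Helper58SylDefs Cfsg.Agent.Lib.H58DlDefs
open Cfsg.Agent.Lib.H58DlPMax
open Cfsg.Agent.Lib.H58DlOrbA
open Cfsg.Agent.Lib.H58DlOrbB

theorem orbit_commutator {α : Type*} [Finite α] (T : Subgroup (Equiv.Perm α)) (hT : IsPGroup 2 ↥T) (m : ℕ)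
    (h : ∀ x : α, Nat.card (MulAction.orbit ↥T x) < 2 ^ (m + 2)) (x : α) :
    Nat.card (MulAction.orbit ↥(⁅T, T⁆ : Subgroup (Equiv.Perm α)) x) < 2 ^ (m + 1) := by
  classical
  have : Fact (Nat.Prime 2) := ⟨Nat.prime_two⟩
  obtain ⟨e, he⟩ := IsPGroup.iff_card.1 hT
  have hidx : (MulAction.stabilizer ↥T x).index = Nat.card (MulAction.orbit ↥T x) := by
    rw [MulAction.index_stabilizer, Nat.card_coe_set_eq]
  have hdvd : Nat.card (MulAction.orbit ↥T x) ∣ 2 ^ e := by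
    rw [← hidx, ← he]
    exact Subgroup.index_dvd_card _
  obtain ⟨j, hj, hc⟩ := (Nat.dvd_prime_pow Nat.prime_two).1 hdvd
  have hjm : j < m + 2 := by
    have := h x
    rw [hc] at this
    exact (Nat.pow_lt_pow_iff_right (by norm_num)).1 this
  have hTT : (⁅T, T⁆ : Subgroup (Equiv.Perm α)) ≤ T := by
    rw [Subgroup.commutator_le]
    intro a ha b hb
    rw [commutatorElement_def]
    exact T.mul_mem (T.mul_mem (T.mul_mem ha hb) (T.inv_mem ha)) (T.inv_mem hb)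
  by_cases hjm' : j ≤ m
  · have hsub : (MulAction.orbit ↥(⁅T, T⁆ : Subgroup (Equiv.Perm α)) x) ⊆ MulAction.orbit ↥T x := by
      rintro y ⟨g, rfl⟩
      exact ⟨⟨g.1, hTT g.2⟩, rfl⟩
    calc Nat.card (MulAction.orbit ↥(⁅T, T⁆ : Subgroup (Equiv.Perm α)) x)
        ≤ Nat.card (MulAction.orbit ↥T x) := Nat.card_mono (Set.toFinite _) hsub
      _ = 2 ^ j := hc
      _ ≤ 2 ^ m := Nat.pow_le_pow_right (by norm_num) hjm'
      _ < 2 ^ (m + 1) := Nat.pow_lt_pow_right (by norm_num) (by omega)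
  · have hj1 : j = m + 1 := by omega
    have hS : MulAction.stabilizer ↥T x ≠ ⊤ := by
      intro htop
      rw [htop, Subgroup.index_top, hc, hj1] at hidx
      have : 1 < 2 ^ (m + 1) := Nat.one_lt_two_pow (by omega)
      omega
    obtain ⟨M, hMn, hM2, hSM⟩ := exists_normal_index 2 hT _ hS
    have h2 := card_orbit_index_two M x hM2 hSM
    rw [hc, hj1, pow_succ] at h2
    have hM : Nat.card (MulAction.orbit ↥M x) = 2 ^ m := by omega
    have hmap : (⁅(⊤ : Subgroup ↥T), (⊤ : Subgroup ↥T)⁆).map T.subtype = ⁅T, T⁆ := by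
      rw [Subgroup.map_commutator, ← MonoidHom.range_eq_map, Subgroup.range_subtype]
    have hsub : (MulAction.orbit ↥(⁅T, T⁆ : Subgroup (Equiv.Perm α)) x) ⊆ MulAction.orbit ↥M x := by
      rintro y ⟨g, rfl⟩
      have hg : (g : Equiv.Perm α) ∈ (⁅(⊤ : Subgroup ↥T), (⊤ : Subgroup ↥T)⁆).map T.subtype := by
        rw [hmap]; exact g.2
      obtain ⟨g', hg', hgg⟩ := hg
      refine ⟨⟨g', commutator_le_of_index_two M hM2 hg'⟩, ?_⟩
      show (g' : Equiv.Perm α) x = (g : Equiv.Perm α) x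
      have : (g' : Equiv.Perm α) = (g : Equiv.Perm α) := hgg
      rw [this]
    calc Nat.card (MulAction.orbit ↥(⁅T, T⁆ : Subgroup (Equiv.Perm α)) x)
        ≤ Nat.card (MulAction.orbit ↥M x) := Nat.card_mono (Set.toFinite _) hsub
      _ = 2 ^ m := hM
      _ < 2 ^ (m + 1) := Nat.pow_lt_pow_right (by norm_num) (by omega)

end Cfsg.Agent.Lib.H58DlOrb
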