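import Mathlib
import Cfsg.Agent.Lib.H58DlDefs
import Cfsg.Agent.Lib.H58DlDsBasic
import Cfsg.Agent.Lib.H58DlOrb

/-! PROJECT 2648 (row S2648, 3u), piece `PermDl`.  Overview: notes/helper58/Dl/README.md.
(45 min.)  `perm_ds`: induction on `m`.  `m = 0`: every orbit has `< 2` elements, so (`x` is in its orbit) `g x = x` for `g ∈ T`: `T = ⊥`, and `ds T 0 = T`.  Step: `ds T (m+1) = ds ⁅T, T⁆ m` (`ds_succ'`), `⁅T, T⁆ ≤ T` is a 2-group (`IsPGroup.to_le`), its orbits are small by `orbit_commutator`.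
`perm_fin`: an orbit is a subset of `Fin n`: `Nat.card ≤ n` (`Nat.card_le_card_of_injective Subtype.val`/`Finite.card_subtype_le`, `Nat.card_fin`).
-/

set_option autoImplicit false

namespace Cfsg.Agent.Lib.H58DlPermDl

open Cfsg.Agent.Lib.Helper58SylDefs Cfsg.Agent.Lib.H58DlDefs
open Cfsg.Agent.Lib.H58DlDsBasic
open Cfsg.Agent.Lib.H58DlOrb

theorem perm_ds {α : Type*} [Finite α] (m : ℕ) : ∀ T : Subgroup (Equiv.Perm α), IsPGroup 2 ↥T →
    (∀ x : α, Nat.card (MulAction.orbit ↥T x) < 2 ^ (m + 1)) → ds T m = ⊥ := by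
  induction m with
  | zero =>
    intro T _ h
    rw [ds_zero, eq_bot_iff]
    intro g hg
    rw [Subgroup.mem_bot]
    ext x
    have h1 : Nat.card (MulAction.orbit ↥T x) ≤ 1 := by
      have h' := h x
      rw [zero_add, pow_one] at h'
      omega
    have h2 : Subsingleton (MulAction.orbit ↥T x) := (Finite.card_le_one_iff_subsingleton).mp h1
    have h3 : (⟨(⟨g, hg⟩ : T) • x, MulAction.mem_orbit x _⟩ : MulAction.orbit ↥T x)
        = ⟨x, MulAction.mem_orbit_self x⟩ := Subsingleton.elim _ _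
    exact congrArg Subtype.val h3
  | succ m ih =>
    intro T hT h
    rw [ds_succ']
    have hle : (⁅T, T⁆ : Subgroup (Equiv.Perm α)) ≤ T := by
      have := ds_le T 1
      rwa [ds_succ, ds_zero] at this
    exact ih _ (hT.to_le hle) (fun x => orbit_commutator T hT m h x)

theorem perm_fin (n m : ℕ) (hn : n < 2 ^ (m + 1)) (T : Subgroup (Equiv.Perm (Fin n))) (hT : IsPGroup 2 ↥T) :
    ds T m = ⊥ := by
  apply perm_ds m T hT
  intro x
  refine lt_of_le_of_lt ?_ hn
  have := Finite.card_subtype_le (fun y : Fin n => y ∈ MulAction.orbit ↥T x)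
  rw [Nat.card_fin] at this
  exact this

end Cfsg.Agent.Lib.H58DlPermDl
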