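import Mathlib
import Cfsg.Agent.Lib.H58DlDefs
import Cfsg.Agent.Lib.H58DlDsBasic

/-! PROJECT 2648 (row S2648, 3u), piece `WrBase`.  Overview: notes/helper58/Dl/README.md.
(35 min, abstract.)  `ds_pi_le`: induction; `Subgroup.commutator_le`, a commutator of functions is computed pointwise (`Pi.commutatorElement`/`funext; simp [commutatorElement_def]`), `Subgroup.mem_pi`, `Subgroup.commutator_mem_commutator`.
`ds_wr_bot`: `W.wr D ⊥ = (pi ..).map W.B` (`Subgroup.map_bot`, `sup_bot_eq`), `ds_map`, `ds_pi_le`, and `Subgroup.pi univ (fun _ => ⊥) = ⊥` (`Subgroup.pi_bot`), `Subgroup.map_bot`.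
-/

set_option autoImplicit false

namespace Cfsg.Agent.Lib.H58DlWrBase

open Cfsg.Agent.Lib.Helper58SylDefs Cfsg.Agent.Lib.H58DlDefs
open Cfsg.Agent.Lib.H58DlDsBasic
open scoped commutatorElement

variable {G D₀ : Type*} [Group G] [Group D₀] {k : ℕ}

theorem ds_pi_le (D : Subgroup D₀) (i : ℕ) :
    ds (Subgroup.pi Set.univ (fun _ : Fin k => D)) i ≤ Subgroup.pi Set.univ (fun _ : Fin k => ds D i) := by
  induction i with
  | zero => exact le_refl _
  | succ i ih =>
    rw [ds_succ]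
    refine le_trans (Subgroup.commutator_mono ih ih) ?_
    rw [Subgroup.commutator_le]
    intro a ha b hb
    rw [Subgroup.mem_pi] at ha hb ⊢
    intro x hx
    rw [ds_succ]
    have : ⁅a, b⁆ x = ⁅a x, b x⁆ := by
      simp [commutatorElement_def]
    rw [this]
    exact Subgroup.commutator_mem_commutator (ha x hx) (hb x hx)

theorem ds_wr_bot (W : WD G D₀ k) (D : Subgroup D₀) (i : ℕ) (h : ds D i = ⊥) : ds (W.wr D ⊥) i = ⊥ := by
  have h1 : W.wr D ⊥ = (Subgroup.pi Set.univ (fun _ : Fin k => D)).map W.B := by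
    unfold WD.wr
    rw [Subgroup.map_bot, sup_bot_eq]
  rw [h1, ← ds_map, eq_bot_iff]
  refine le_trans (Subgroup.map_mono (ds_pi_le D i)) ?_
  rw [h, Subgroup.pi_bot, Subgroup.map_bot]

end Cfsg.Agent.Lib.H58DlWrBase
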