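import Mathlib
import Cfsg.Agent.Lib.H58DlDefs
import Cfsg.Agent.Lib.H58DlDsBasic
import Cfsg.Agent.Lib.Helper73SylWrcard

/-! PROJECT 2648 (row S2648, 3u), piece `WrComm`. -/

set_option autoImplicit false

namespace Cfsg.Agent.Lib.H58DlWrComm

open Cfsg.Agent.Lib.Helper58SylDefs Cfsg.Agent.Lib.H58DlDefs
open Cfsg.Agent.Lib.H58DlDsBasic
open scoped commutatorElement

variable {G D₀ : Type*} [Group G] [Group D₀] {k : ℕ}

theorem wr_mono (W : WD G D₀ k) (D : Subgroup D₀) {T T' : Subgroup (Equiv.Perm (Fin k))} (h : T ≤ T') :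
    W.wr D T ≤ W.wr D T' :=
  sup_le_sup_left (Subgroup.map_mono h) _

theorem commutator_wr_le (W : WD G D₀ k) (D : Subgroup D₀) (T : Subgroup (Equiv.Perm (Fin k))) :
    ⁅W.wr D T, W.wr D T⁆ ≤ W.wr D ⁅T, T⁆ := by
  rw [Subgroup.commutator_le]
  intro g hg g' hg'
  rw [Cfsg.Agent.Lib.Helper73SylWrcard.wr_eq_S0] at hg hg'
  obtain ⟨d, hd, π, hπ, rfl⟩ := hg
  obtain ⟨d', hd', π', hπ', rfl⟩ := hg'
  have hB : ∀ d : Fin k → D₀, (∀ i, d i ∈ D) → W.B d ∈ W.wr D ⁅T, T⁆ :=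
    fun d hd => Subgroup.mem_sup_left ⟨d, fun i _ => hd i, rfl⟩
  have hBc : ∀ (σ : Equiv.Perm (Fin k)) (d : Fin k → D₀), (∀ i, d i ∈ D) →
      W.Pm σ * W.B d * (W.Pm σ)⁻¹ ∈ W.wr D ⁅T, T⁆ := by
    intro σ d hd
    rw [W.conj]
    exact hB _ (fun i => hd _)
  have hP : W.Pm ⁅π, π'⁆ ∈ W.wr D ⁅T, T⁆ :=
    Subgroup.mem_sup_right ⟨_, Subgroup.commutator_mem_commutator hπ hπ', rfl⟩
  have key : ⁅W.B d * W.Pm π, W.B d' * W.Pm π'⁆ =
      W.B d * (W.Pm π * W.B d' * (W.Pm π)⁻¹) *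
        (W.Pm (π * π' * π⁻¹) * W.B d⁻¹ * (W.Pm (π * π' * π⁻¹))⁻¹) * W.Pm ⁅π, π'⁆ * W.B d'⁻¹ := by
    rw [commutatorElement_def, commutatorElement_def]
    simp only [map_mul, map_inv]
    group
  rw [key]
  exact mul_mem (mul_mem (mul_mem (mul_mem (hB d hd) (hBc π d' hd'))
    (hBc _ d⁻¹ (fun i => D.inv_mem (hd i)))) hP) (hB d'⁻¹ fun i => D.inv_mem (hd' i))

theorem ds_wr_le (W : WD G D₀ k) (D : Subgroup D₀) (T : Subgroup (Equiv.Perm (Fin k))) (i : ℕ) :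
    ds (W.wr D T) i ≤ W.wr D (ds T i) := by
  induction i with
  | zero => exact le_refl _
  | succ i ih =>
    rw [ds_succ, ds_succ]
    exact (Subgroup.commutator_mono ih ih).trans (commutator_wr_le W D _)

end Cfsg.Agent.Lib.H58DlWrComm
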