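import Mathlib
import Cfsg.Agent.Lib.H58DlDefs
import Cfsg.Agent.Lib.H58DlDsBasic
import Cfsg.Agent.Lib.H58DlPermDl
import Cfsg.Agent.Lib.H58DlWrComm
import Cfsg.Agent.Lib.H58DlWrBase

/-! PROJECT 2648 (row S2648, 3u), piece `Upper` (assembly, by helper58). -/

set_option autoImplicit false

namespace Cfsg.Agent.Lib.H58DlUpper

open Cfsg.Agent.Lib.Helper58SylDefs Cfsg.Agent.Lib.H58DlDefs
open Cfsg.Agent.Lib.H58DlDsBasic Cfsg.Agent.Lib.H58DlPermDl Cfsg.Agent.Lib.H58DlWrComm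
open Cfsg.Agent.Lib.H58DlWrBase

theorem upper {G D₀ : Type*} [Group G] [Group D₀] {n : ℕ} (W : WD G D₀ n) (D : Subgroup D₀)
    (hD : ds D 2 = ⊥) (T : Subgroup (Equiv.Perm (Fin n))) (hT : IsPGroup 2 ↥T) (m : ℕ)
    (hn : n < 2 ^ (m + 1)) : ds (W.wr D T) (m + 2) = ⊥ := by
  rw [ds_add, eq_bot_iff]
  have h1 : ds (W.wr D T) m ≤ W.wr D ⊥ := by
    have := ds_wr_le W D T m
    rwa [perm_fin n m hn T hT] at this
  calc ds (ds (W.wr D T) m) 2 ≤ ds (W.wr D ⊥) 2 := ds_mono h1 2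
    _ = ⊥ := ds_wr_bot W D 2 hD

end Cfsg.Agent.Lib.H58DlUpper
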