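import Mathlib
import Cfsg.Agent.Lib.H58DlDefs
import Cfsg.Agent.Lib.H58DlDsBasic
import Cfsg.Agent.Lib.H58DlConj
import Cfsg.Agent.Lib.H58DlSL2
import Cfsg.Agent.Lib.H58DlUpper
import Cfsg.Agent.Lib.H58DlChain
import Cfsg.Agent.Lib.Helper58SylHubA
import Cfsg.Agent.S0245

/-! PROJECT 2648 (row S2648, 3u), piece `Main` (assembly, by helper58). -/

set_option autoImplicit false

namespace Cfsg.Agent.Lib.H58DlMain

open Cfsg.Agent.Lib.Helper58SylDefs Cfsg.Agent.Lib.H58DlDefs Cfsg.Agent.Lib.Helper58SylHubA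
open Cfsg.Agent.Lib.H58DlDsBasic Cfsg.Agent.Lib.H58DlConj Cfsg.Agent.Lib.H58DlSL2
open Cfsg.Agent.Lib.H58DlUpper Cfsg.Agent.Lib.H58DlChain

theorem main {F : Type*} [Field F] [Fintype F] (hF : Odd (Fintype.card F)) (n : ℕ) (hn : 1 ≤ n)
    (R : Sylow 2 ↥(Matrix.symplecticGroup (Fin n) F)) :
    ds (R : Subgroup ↥(Matrix.symplecticGroup (Fin n) F)) (Nat.log 2 (2 * n) + 1) = ⊥ ∧
      ds (R : Subgroup ↥(Matrix.symplecticGroup (Fin n) F)) (Nat.log 2 (2 * n)) ≠ ⊥ := by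
  have : Fact (Nat.Prime 2) := ⟨Nat.prime_two⟩
  have hlog : Nat.log 2 (2 * n) = Nat.log 2 n + 1 := by
    rw [mul_comm]
    exact Nat.log_mul_base (by norm_num) (by omega)
  obtain ⟨W⟩ := exists_wd_sp (F := F) n
  obtain ⟨D⟩ : Nonempty (Sylow 2 (Matrix.SpecialLinearGroup (Fin 2) F)) := inferInstance
  obtain ⟨hD2, hD1⟩ := sl2_ds hF D
  have hfin : Finite ↥(Matrix.symplecticGroup (Fin n) F) := inferInstance
  rw [hlog]
  constructor
  · obtain ⟨T, hTc, -⟩ := tex 2 n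
    have hTp : IsPGroup 2 ↥T := IsPGroup.of_card hTc
    have hDc : Nat.card (D : Subgroup (Matrix.SpecialLinearGroup (Fin 2) F)) =
        2 ^ dd (Fintype.card F) := by
      have h1 := D.card_eq_multiplicity
      rw [card_sl2_val hF] at h1
      exact h1
    have hc : Nat.card (W.wr (D : Subgroup (Matrix.SpecialLinearGroup (Fin 2) F)) T) =
        2 ^ (dd (Fintype.card F) * n + (n.factorial).factorization 2) := by
      have h2 := card_wr W (D : Subgroup (Matrix.SpecialLinearGroup (Fin 2) F)) T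
      rw [h2, hDc, hTc, ← pow_mul, ← pow_add]
    have hG : ¬ 2 ^ (dd (Fintype.card F) * n + (n.factorial).factorization 2 + 1) ∣
        Nat.card ↥(Matrix.symplecticGroup (Fin n) F) := by
      rw [Cfsg.Agent.S0245.result rfl n]
      exact arith_sp _ hF Fintype.one_lt_card n
    obtain ⟨P, hP⟩ := Cfsg.Agent.Lib.Helper40Sylgen.exists_sylow_of_card 2 _ _ hc hG
    rw [sylow_ds_iff 2 R P, hP]
    exact upper W _ hD2 T hTp (Nat.log 2 n) (Nat.lt_pow_succ_log_self (by norm_num) n)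
  · have hDp : IsPGroup 2 ↥(D : Subgroup (Matrix.SpecialLinearGroup (Fin 2) F)) := D.isPGroup'
    have hle : 2 ^ Nat.log 2 n ≤ n := Nat.pow_log_le_self 2 (by omega)
    obtain ⟨A, hA, -, hAd⟩ := chain W (D : Subgroup (Matrix.SpecialLinearGroup (Fin 2) F)) hDp hD1
      (Nat.log 2 n) hle
    exact ds_ne_bot_of_pgroup 2 A hA _ hAd R

end Cfsg.Agent.Lib.H58DlMain
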