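import Mathlib

/-! PROJECT 4632 (row S4632, 10u), piece `Abs0`.  A Sylow 2-subgroup of a subgroup, as a subgroup
of the ambient group. -/

set_option autoImplicit false

namespace Cfsg.Agent.Lib.H58G2Abs0

theorem exists_sylow_sub {G : Type*} [Group G] [Finite G] (X : Subgroup G) :
    ∃ P : Subgroup G, P ≤ X ∧ IsPGroup 2 ↥P ∧ Odd (P.relIndex X) := by
  haveI : Fact (Nat.Prime 2) := ⟨Nat.prime_two⟩
  obtain ⟨S⟩ : Nonempty (Sylow 2 ↥X) := Sylow.nonempty
  refine ⟨(S : Subgroup ↥X).map X.subtype, Subgroup.map_subtype_le _, S.isPGroup'.map _, ?_⟩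
  have h1 : ((S : Subgroup ↥X).map X.subtype).relIndex X = (S : Subgroup ↥X).index := by
    rw [Subgroup.relIndex, Subgroup.subgroupOf,
      Subgroup.comap_map_eq_self_of_injective X.subtype_injective]
  rw [h1, ← Nat.not_even_iff_odd, even_iff_two_dvd]
  exact S.not_dvd_index

end Cfsg.Agent.Lib.H58G2Abs0
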