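import Mathlib

/-! PROJECT 4632 (row S4632, 10u), piece `Abs1`.  Overview: notes/helper58/G2/README.md.
(45 min, PURE group theory.)  `V ≤ P` for a Sylow 2-subgroup `P` (`IsPGroup.exists_le_sylow`).  `P` is a nontrivial 2-group (`t ∈ P`, `t ≠ 1`), so its centre is nontrivial (`IsPGroup.center_nontrivial`, needs `Nontrivial ↥P`, `Finite ↥P`):
there is `z ∈ P`, `z ≠ 1`, commuting with all elements of `P`, in particular with `V`; by `hz`, `z = t`.  So `t` commutes with all elements of `P`: `Subgroup.mem_centralizer_singleton_iff`.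
-/

set_option autoImplicit false

namespace Cfsg.Agent.Lib.H58G2Abs1

theorem exists_sylow_le_centralizer {G : Type*} [Group G] [Finite G] (t : G) (ht : t ≠ 1) (V : Subgroup G)
    (hV : IsPGroup 2 ↥V) (htV : t ∈ V) (hz : ∀ z : G, (∀ v ∈ V, v * z = z * v) → z = 1 ∨ z = t) :
    ∃ P : Sylow 2 G, ∀ g ∈ (P : Subgroup G), g * t = t * g := by
  have : Fact (Nat.Prime 2) := ⟨Nat.prime_two⟩
  obtain ⟨P, hVP⟩ := hV.exists_le_sylow
  refine ⟨P, ?_⟩
  have htP : t ∈ (P : Subgroup G) := hVP htV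
  have hPnt : Nontrivial (P : Subgroup G) := ⟨⟨⟨t, htP⟩, 1, fun h => ht (congrArg Subtype.val h)⟩⟩
  have hcnt := P.isPGroup'.center_nontrivial
  obtain ⟨z, hz1⟩ := exists_ne (1 : Subgroup.center (P : Subgroup G))
  have hzc : ∀ w : (P : Subgroup G), w * z.1 = z.1 * w := Subgroup.mem_center_iff.1 z.2
  have hz1' : ((z.1 : (P : Subgroup G)) : G) ≠ 1 := by
    intro h
    apply hz1
    apply Subtype.ext
    apply Subtype.ext
    exact h
  have hzt : ((z.1 : (P : Subgroup G)) : G) = t :=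
    (hz _ fun v hv => congrArg Subtype.val (hzc ⟨v, hVP hv⟩)).resolve_left hz1'
  intro g hg
  rw [← hzt]
  exact congrArg Subtype.val (hzc ⟨g, hg⟩)

end Cfsg.Agent.Lib.H58G2Abs1
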