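import Mathlib

/-! PROJECT 4632 (row S4632, 10u), piece `NC1`.  Overview: notes/helper58/G2/README.md.
(60 min, PURE group theory.)  Write `Nat.card X = 2 ^ k * m`, `m` odd (`Nat.exists_eq_two_pow_mul_odd`).  `O := {a ∈ A | a ^ m = 1}`: a subgroup since `A` is commutative (`(a b)^m = a^m b^m`, `Commute.mul_pow`), normal (`(x a x⁻¹)^m = x a^m x⁻¹`, `conj_pow`).
`Nat.card O` is odd: otherwise Cauchy (`exists_prime_orderOf_dvd_card'`) gives `o ∈ O` of order 2, but `o ^ m = 1` with `m` odd (`orderOf_dvd_of_pow_eq_one`).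
For `x : X`: `y = x ^ (2 ^ (k+1)) = (x ^ 2) ^ (2 ^ k) ∈ A` and `y ^ m = (x ^ 2) ^ (card X) = 1` (`pow_card_eq_one'`), so `y ∈ O`.
-/

set_option autoImplicit false

namespace Cfsg.Agent.Lib.H58G2NC1

theorem exists_odd_normal {X : Type*} [Group X] [Finite X] (A : Subgroup X)
    (hAab : ∀ a ∈ A, ∀ b ∈ A, a * b = b * a) (hAn : ∀ x : X, ∀ a ∈ A, x * a * x⁻¹ ∈ A)
    (hsq : ∀ x : X, x ^ 2 ∈ A) :
    ∃ O : Subgroup X, O.Normal ∧ Odd (Nat.card ↥O) ∧ ∃ k : ℕ, ∀ x : X, x ^ (2 ^ k) ∈ O := by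
  obtain ⟨k, m, hm, hkm⟩ := Nat.exists_eq_two_pow_mul_odd (Nat.card_pos (α := X)).ne'
  let O : Subgroup X :=
    { carrier := {a | a ∈ A ∧ a ^ m = 1}
      one_mem' := ⟨A.one_mem, one_pow m⟩
      mul_mem' := by
        rintro a b ⟨ha, ha'⟩ ⟨hb, hb'⟩
        refine ⟨A.mul_mem ha hb, ?_⟩
        rw [(show Commute a b from hAab a ha b hb).mul_pow, ha', hb', one_mul]
      inv_mem' := by
        rintro a ⟨ha, ha'⟩
        exact ⟨A.inv_mem ha, by rw [inv_pow, ha', inv_one]⟩ }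
  have hmem : ∀ a, a ∈ O ↔ a ∈ A ∧ a ^ m = 1 := fun a => Iff.rfl
  refine ⟨O, ⟨?_⟩, ?_, k + 1, ?_⟩
  · intro a ha x
    rw [hmem] at ha ⊢
    refine ⟨hAn x a ha.1, ?_⟩
    rw [conj_pow, ha.2]
    group
  · by_contra hodd
    rw [Nat.not_odd_iff_even] at hodd
    haveI : Fact (Nat.Prime 2) := ⟨Nat.prime_two⟩
    obtain ⟨o, ho⟩ := exists_prime_orderOf_dvd_card' 2 hodd.two_dvd
    have h1 : (o : X) ^ m = 1 := ((hmem _).mp o.2).2
    have h2 : o ^ m = 1 := Subtype.ext (by simpa using h1)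
    have h3 := orderOf_dvd_of_pow_eq_one h2
    rw [ho] at h3
    exact (Nat.not_even_iff_odd.mpr hm) (even_iff_two_dvd.mpr h3)
  · intro x
    rw [hmem]
    have e : x ^ (2 ^ (k + 1)) = (x ^ 2) ^ (2 ^ k) := by rw [← pow_mul, pow_succ, mul_comm]
    refine ⟨by rw [e]; exact A.pow_mem (hsq x) _, ?_⟩
    rw [e, ← pow_mul, ← hkm, pow_card_eq_one']

end Cfsg.Agent.Lib.H58G2NC1
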