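import Mathlib

/-! PROJECT 4632 (row S4632, 10u), piece `NC2`.  Overview: notes/helper58/G2/README.md.
(60 min, PURE group theory.)  `X ⧸ O` is a 2-group (`IsPGroup`: `(mk x) ^ (2 ^ k) = mk (x ^ 2 ^ k) = 1`), so `Nat.card (X ⧸ O) = O.index = 2 ^ a` (`IsPGroup.iff_card`), `Nat.card X = Nat.card O * 2 ^ a` (`Subgroup.card_mul_index`).
`Nat.card P = 2 ^ b` and `Nat.card X = 2 ^ b * P.index`.  Odd parts / 2-parts: `2 ^ a = 2 ^ b` (`2 ^ a ∣ 2 ^ b * odd` gives `2 ^ a ∣ 2 ^ b` by `Nat.Coprime.dvd_of_dvd_mul_right`, and conversely).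
So `Nat.card P * Nat.card O = Nat.card X`, coprime: `Subgroup.isComplement'_of_coprime`.
-/

set_option autoImplicit false

namespace Cfsg.Agent.Lib.H58G2NC2

theorem isComplement {X : Type*} [Group X] [Finite X] (O P : Subgroup X) [O.Normal]
    (hO : Odd (Nat.card ↥O)) (k : ℕ) (hk : ∀ x : X, x ^ (2 ^ k) ∈ O)
    (hP : IsPGroup 2 ↥P) (hodd : Odd P.index) : Subgroup.IsComplement' P O := by
  haveI : Fact (Nat.Prime 2) := ⟨Nat.prime_two⟩
  have hQ : IsPGroup 2 (X ⧸ O) := by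
    intro y
    induction y using QuotientGroup.induction_on with
    | H x =>
      refine ⟨k, ?_⟩
      rw [← QuotientGroup.mk_pow, QuotientGroup.eq_one_iff]
      exact hk x
  obtain ⟨a, ha⟩ := IsPGroup.iff_card.mp hQ
  obtain ⟨b, hb⟩ := IsPGroup.iff_card.mp hP
  have h1 : Nat.card O * 2 ^ a = Nat.card X := by
    rw [← ha]; exact O.card_mul_index
  have h2 : 2 ^ b * P.index = Nat.card X := by
    rw [← hb]; exact P.card_mul_index
  have hcO : Nat.Coprime (2 ^ a) (Nat.card O) :=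
    Nat.Coprime.pow_left a (Nat.coprime_two_left.mpr hO)
  have hcP : Nat.Coprime (2 ^ b) P.index :=
    Nat.Coprime.pow_left b (Nat.coprime_two_left.mpr hodd)
  have hab : 2 ^ a = 2 ^ b := by
    apply Nat.dvd_antisymm
    · have : 2 ^ a ∣ 2 ^ b * P.index := by rw [h2, ← h1]; exact Dvd.intro_left _ rfl
      have hc : Nat.Coprime (2 ^ a) P.index := Nat.Coprime.pow_left a (Nat.coprime_two_left.mpr hodd)
      exact hc.dvd_of_dvd_mul_right this
    · have : 2 ^ b ∣ Nat.card O * 2 ^ a := by rw [h1, ← h2]; exact Dvd.intro _ rfl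
      have hc : Nat.Coprime (2 ^ b) (Nat.card O) := Nat.Coprime.pow_left b (Nat.coprime_two_left.mpr hO)
      exact hc.dvd_of_dvd_mul_left this
  apply Subgroup.isComplement'_of_coprime
  · rw [hb, ← hab, mul_comm]; exact h1
  · rw [hb, ← hab]; exact hcO

end Cfsg.Agent.Lib.H58G2NC2
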