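import Mathlib

/-! PROJECT 4632 (row S4632, 10u), piece `NC3`.  Overview: notes/helper58/G2/README.md.
(45 min, PURE group theory.)  `π = QuotientGroup.mk' O`.  `P.map π = ⊤` (every `x` is `p * o`: `Subgroup.IsComplement'.sup_eq_top`/`Subgroup.IsComplement.existsUnique`), so by `Subgroup.map_commutator`
`⁅⊤, ⊤⁆.map π = ⁅⊤.map π, ⊤.map π⁆ ≤ ⁅⊤, ⊤⁆ = ⁅P.map π, P.map π⁆ = ⁅P, P⁆.map π`.  So `π y = π z` with `z ∈ ⁅P, P⁆ ≤ P` (`Subgroup.commutator_le_left`-type lemma or `Subgroup.commutator_le`), `z⁻¹ * y ∈ O ⊓ P = ⊥`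
(`QuotientGroup.eq`, `Subgroup.IsComplement'.disjoint`), `y = z`.
-/

set_option autoImplicit false

namespace Cfsg.Agent.Lib.H58G2NC3

theorem mem_commutator_of_complement {X : Type*} [Group X] (O P : Subgroup X) [O.Normal]
    (h : Subgroup.IsComplement' P O) (y : X) (hy : y ∈ P) (hyX : y ∈ ⁅(⊤ : Subgroup X), (⊤ : Subgroup X)⁆) :
    y ∈ ⁅P, P⁆ := by
  have hsup : P ⊔ O = ⊤ := h.sup_eq_top
  have hmap : P.map (QuotientGroup.mk' O) = ⊤ := by
    have h1 : (P ⊔ O).map (QuotientGroup.mk' O) = ⊤ := by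
      rw [hsup]; exact Subgroup.map_top_of_surjective _ (QuotientGroup.mk'_surjective O)
    rw [Subgroup.map_sup] at h1
    have hO : O.map (QuotientGroup.mk' O) = ⊥ := by
      rw [Subgroup.map_eq_bot_iff, QuotientGroup.ker_mk']
    rwa [hO, sup_bot_eq] at h1
  have h1 : QuotientGroup.mk' O y ∈ (⁅P, P⁆ : Subgroup X).map (QuotientGroup.mk' O) := by
    rw [Subgroup.map_commutator, hmap]
    have h2 : QuotientGroup.mk' O y ∈ (⁅(⊤ : Subgroup X), (⊤ : Subgroup X)⁆).map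
        (QuotientGroup.mk' O) := Subgroup.mem_map_of_mem _ hyX
    rw [Subgroup.map_commutator] at h2
    exact Subgroup.commutator_mono le_top le_top h2
  obtain ⟨z, hz, hzy⟩ := h1
  have hzP : z ∈ P := Subgroup.commutator_le_self P hz
  have h3 : z⁻¹ * y ∈ O := QuotientGroup.eq.1 hzy
  have h4 : z⁻¹ * y ∈ P := P.mul_mem (P.inv_mem hzP) hy
  have h5 : z⁻¹ * y = 1 := Subgroup.disjoint_def.1 h.disjoint h4 h3
  have h6 : y = z := (inv_mul_eq_one.1 h5).symm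
  rw [h6]; exact hz

end Cfsg.Agent.Lib.H58G2NC3
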