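import Mathlib
import Cfsg.Agent.Lib.H58G2NC1
import Cfsg.Agent.Lib.H58G2NC2
import Cfsg.Agent.Lib.H58G2NC3

/-! PROJECT 4632 (row S4632, 10u), piece `NCT`.  Overview: notes/helper58/G2/README.md.
(60 min, PURE group theory, assembly + transfer to subgroups.)  Work in the type `↥X` with `A' = A.subgroupOf X`, `P' = P.subgroupOf X` (`P'.index = P.relIndex X` by definition; `IsPGroup 2 P'` via `Subgroup.subgroupOfEquivOfLe hPX` and `IsPGroup.of_equiv`).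
`exists_odd_normal`, `isComplement`, `mem_commutator_of_complement` give: `⟨y, _⟩ ∈ ⁅P', P'⁆`, provided `⟨y, _⟩ ∈ ⁅⊤, ⊤⁆` in `↥X`.
Transfer: `⁅⊤, ⊤⁆.map X.subtype = ⁅X, X⁆` and `⁅P', P'⁆.map X.subtype = ⁅P, P⁆` (`Subgroup.map_commutator`, `Subgroup.map_subgroupOf_eq_of_le`/`Subgroup.subgroupOf_map_subtype`, `← MonoidHom.range_eq_map`, `Subgroup.range_subtype`); `X.subtype` is injective.
-/

set_option autoImplicit false

namespace Cfsg.Agent.Lib.H58G2NCT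

open Cfsg.Agent.Lib.H58G2NC1 Cfsg.Agent.Lib.H58G2NC2 Cfsg.Agent.Lib.H58G2NC3

theorem mem_commutator {G : Type*} [Group G] [Finite G] (X A P : Subgroup G) (hAX : A ≤ X)
    (hAab : ∀ a ∈ A, ∀ b ∈ A, a * b = b * a) (hAn : ∀ x ∈ X, ∀ a ∈ A, x * a * x⁻¹ ∈ A)
    (hsq : ∀ x ∈ X, x ^ 2 ∈ A) (hPX : P ≤ X) (hP : IsPGroup 2 ↥P) (hodd : Odd (P.relIndex X))
    (y : G) (hy : y ∈ P) (hyX : y ∈ ⁅X, X⁆) : y ∈ ⁅P, P⁆ := by
  obtain ⟨O, hOn, hOodd, k, hk⟩ := exists_odd_normal (A.subgroupOf X)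
    (by
      intro a ha b hb
      rw [Subgroup.mem_subgroupOf] at ha hb
      exact Subtype.ext (hAab _ ha _ hb))
    (by
      intro x a ha
      rw [Subgroup.mem_subgroupOf] at ha ⊢
      exact hAn _ x.2 _ ha)
    (by
      intro x
      rw [Subgroup.mem_subgroupOf]
      exact hsq _ x.2)
  have hP' : IsPGroup 2 ↥(P.subgroupOf X) := hP.of_equiv (Subgroup.subgroupOfEquivOfLe hPX).symm
  have hc := isComplement O (P.subgroupOf X) hOodd k hk hP' hodd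
  have hy' : (⟨y, hPX hy⟩ : X) ∈ P.subgroupOf X := by
    rw [Subgroup.mem_subgroupOf]; exact hy
  have hyX' : (⟨y, hPX hy⟩ : X) ∈ ⁅(⊤ : Subgroup X), (⊤ : Subgroup X)⁆ := by
    have h1 : (⁅(⊤ : Subgroup X), (⊤ : Subgroup X)⁆).map X.subtype = ⁅X, X⁆ := by
      rw [Subgroup.map_commutator, ← MonoidHom.range_eq_map, Subgroup.range_subtype]
    rw [← h1] at hyX
    obtain ⟨w, hw, hwy⟩ := hyX
    have h2 : w = ⟨y, hPX hy⟩ := Subtype.ext hwy
    rwa [h2] at hw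
  have h3 := mem_commutator_of_complement O (P.subgroupOf X) hc _ hy' hyX'
  have h2 : (⁅P.subgroupOf X, P.subgroupOf X⁆).map X.subtype = ⁅P, P⁆ := by
    rw [Subgroup.map_commutator, Subgroup.subgroupOf_map_subtype, inf_eq_left.2 hPX]
  rw [← h2]
  exact ⟨_, h3, rfl⟩

end Cfsg.Agent.Lib.H58G2NCT
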