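import Mathlib
import Cfsg.Agent.Lib.Helper58SylDefs
import Cfsg.Agent.Lib.Helper40Sylgen
import Cfsg.Agent.Lib.H58G2Abs0
import Cfsg.Agent.Lib.H58G2Abs1
import Cfsg.Agent.Lib.H58G2NCT

/-! PROJECT 4632 (row S4632, 10u), piece `Abs3`.  Overview: notes/helper58/G2/README.md.
(75 min, PURE group theory, assembly.)  `V = U.map Φ`; `exists_sylow_le_centralizer` gives a Sylow 2-subgroup `S` of `G` centralising `t`, so `S ≤ Φ.range` (`hC`) and `Φ.range.index` is odd (`Subgroup.index_dvd_of_le`, `Sylow.not_dvd_index`).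
`X = N.map Φ`: `X.index = (N ⊔ Φ.ker).index * Φ.range.index = N.index * Φ.range.index` (`Subgroup.index_map`, `sup_eq_left.2 hker`), odd.  `exists_sylow_sub X` gives `Q ≤ X`; `Q.index = Q.relIndex X * X.index` (`Subgroup.relIndex_mul_index`) is odd,
so `Q` is a Sylow 2-subgroup of `G` (`IsPGroup.toSylow`).  By `Helper40Sylgen.elemAb_of_sylow` it is enough to show `y ^ 2 ∈ ⁅Q, Q⁆` for `y ∈ Q`.  `y = Φ x`, `x ∈ N`, `x ^ 2 ∈ ⁅N, N⁆ ⊔ Φ.ker`, so `y ^ 2 ∈ (⁅N, N⁆ ⊔ Φ.ker).map Φ = ⁅X, X⁆`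
(`Subgroup.map_sup`, `Subgroup.map_commutator`, `(Φ.ker).map Φ = ⊥`).  `mem_commutator X (A.map Φ) Q ...` finishes.
-/

set_option autoImplicit false

namespace Cfsg.Agent.Lib.H58G2Abs3

open Cfsg.Agent.Lib.Helper58SylDefs
open Cfsg.Agent.Lib.H58G2Abs0 Cfsg.Agent.Lib.H58G2Abs1 Cfsg.Agent.Lib.H58G2NCT

theorem abs_main {G Γ : Type*} [Group G] [Finite G] [Group Γ] (Φ : Γ →* G) (t : G) (ht : t ≠ 1)
    (hC : ∀ g : G, g * t = t * g → g ∈ Φ.range)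
    (N A : Subgroup Γ) (hker : Φ.ker ≤ N) (hodd : Odd N.index) (hAN : A ≤ N)
    (hAab : ∀ a ∈ A, ∀ b ∈ A, a * b = b * a) (hAn : ∀ x ∈ N, ∀ a ∈ A, x * a * x⁻¹ ∈ A)
    (hsqA : ∀ x ∈ N, x ^ 2 ∈ A) (hsq : ∀ x ∈ N, x ^ 2 ∈ ⁅N, N⁆ ⊔ Φ.ker)
    (U : Subgroup Γ) (hU : IsPGroup 2 ↥U) (htU : ∃ u ∈ U, Φ u = t)
    (hz : ∀ z : G, (∀ u ∈ U, Φ u * z = z * Φ u) → z = 1 ∨ z = t) : ElemAb 2 G := by
  have : Fact (Nat.Prime 2) := ⟨Nat.prime_two⟩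
  obtain ⟨u₀, hu₀, hu₀t⟩ := htU
  obtain ⟨S, hS⟩ := exists_sylow_le_centralizer t ht (U.map Φ) (hU.map Φ) ⟨u₀, hu₀, hu₀t⟩ (by
    intro z hzz
    apply hz
    intro u hu
    exact hzz _ ⟨u, hu, rfl⟩)
  have hSr : (S : Subgroup G) ≤ Φ.range := fun g hg => hC g (hS g hg)
  have hr_odd : Odd Φ.range.index := by
    rw [← Nat.not_even_iff_odd, even_iff_two_dvd]
    intro h
    exact S.not_dvd_index (h.trans (Subgroup.index_dvd_of_le hSr))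
  have hXodd : Odd (N.map Φ).index := by
    rw [Subgroup.index_map, sup_eq_left.2 hker]
    exact hodd.mul hr_odd
  obtain ⟨Q, hQX, hQp, hQodd⟩ := exists_sylow_sub (N.map Φ)
  have hQi : Odd Q.index := by
    rw [← Subgroup.relIndex_mul_index hQX]
    exact hQodd.mul hXodd
  let Q' : Sylow 2 G := hQp.toSylow (by rw [← even_iff_two_dvd, Nat.not_even_iff_odd]; exact hQi)
  apply Cfsg.Agent.Lib.Helper40Sylgen.elemAb_of_sylow 2 Q'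
  intro y hy
  have hy' : y ∈ Q := hy
  show y ^ 2 ∈ ⁅Q, Q⁆
  obtain ⟨x, hx, rfl⟩ := hQX hy'
  have h1 : Φ x ^ 2 ∈ ⁅N.map Φ, N.map Φ⁆ := by
    have h := Subgroup.mem_map_of_mem Φ (hsq x hx)
    have hk : (Φ.ker).map Φ = ⊥ := (Subgroup.map_eq_bot_iff _).2 le_rfl
    rw [Subgroup.map_sup, Subgroup.map_commutator, map_pow, hk, sup_bot_eq] at h
    exact h
  refine mem_commutator (N.map Φ) (A.map Φ) Q (Subgroup.map_mono hAN) ?_ ?_ ?_ hQX hQp hQodd _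
    (Q.pow_mem hy' 2) h1
  · rintro _ ⟨a, ha, rfl⟩ _ ⟨b, hb, rfl⟩
    rw [← map_mul, ← map_mul, hAab a ha b hb]
  · rintro _ ⟨z, hz', rfl⟩ _ ⟨a, ha, rfl⟩
    exact ⟨z * a * z⁻¹, hAn z hz' a ha, by simp⟩
  · rintro _ ⟨z, hz', rfl⟩
    exact ⟨z ^ 2, hsqA z hz', by simp⟩

end Cfsg.Agent.Lib.H58G2Abs3
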