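import Mathlib
import Cfsg.Prelude.Def_G2

/-!
PROJECT 4632 (row S4632): a Sylow 2-subgroup of `G₂(q)` (`q` odd; automorphisms of Zorn's algebra) has elementary abelian
abelianisation.  Vocabulary.

`M2 F` = 2 × 2 matrices.  `cdMul` = the Cayley-Dickson double of `M2 F` (`x̄ = adjugate x`), `th : M2 × M2 → F⁸` the isomorphism with
Zorn's algebra.  `Gam F = {(c, r) ∈ GL₂ × GL₂ | det c = det r}` acts on the double by `act (c, r) (a, b) = (c a c⁻¹, r b c⁻¹)`.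
`IsPhi Φ`: the homomorphism `Φ : Gam F →* G₂(F)` realises this action.  `tG = (1, -1)`.
`rot x y = x + y J`, `ref x y = diag(1,-1) * rot x y`.  `ET F = C(J)` (the torus `{rot x y}`), `NT F = N(⟨J⟩) = {rot, ref}`.
`GN F`, `GA F`: the pairs of `Gam F` with both entries in `NT F`, resp. `ET F`.
-/

set_option autoImplicit false

namespace Cfsg.Agent.Lib.H58G2Defs

open Matrix
open scoped MatrixGroups

abbrev M2 (F : Type*) := Matrix (Fin 2) (Fin 2) F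

variable {F : Type*} [Field F]

/-- the Cayley-Dickson double of `M2 F` -/
def cdMul (x y : M2 F × M2 F) : M2 F × M2 F :=
  (x.1 * y.1 + adjugate y.2 * x.2, y.2 * x.1 + x.2 * adjugate y.1)

/-- the isomorphism with Zorn's vector matrix algebra -/
def th (x : M2 F × M2 F) : Fin 8 → F :=
  ![x.1 0 0, x.2 0 0, - x.2 1 0, x.1 0 1, x.2 1 1, x.2 0 1, x.1 1 0, x.1 1 1]

/-- pairs with the same determinant -/
def Gam (F : Type*) [Field F] : Subgroup (GL (Fin 2) F × GL (Fin 2) F) :=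
  ((Matrix.GeneralLinearGroup.det (n := Fin 2) (R := F)).comp (MonoidHom.fst _ _)).eqLocus
    ((Matrix.GeneralLinearGroup.det (n := Fin 2) (R := F)).comp (MonoidHom.snd _ _))

theorem mem_Gam (γ : GL (Fin 2) F × GL (Fin 2) F) :
    γ ∈ Gam F ↔ Matrix.GeneralLinearGroup.det γ.1 = Matrix.GeneralLinearGroup.det γ.2 := Iff.rfl

/-- the action on the double -/
def act (γ : GL (Fin 2) F × GL (Fin 2) F) (x : M2 F × M2 F) : M2 F × M2 F :=
  ((γ.1 : M2 F) * x.1 * ((γ.1⁻¹ : GL (Fin 2) F) : M2 F),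
    (γ.2 : M2 F) * x.2 * ((γ.1⁻¹ : GL (Fin 2) F) : M2 F))

/-- the matrix of an element of `G₂(F)` -/
abbrev mt (g : ↥(Cfsg.Lie.G2 F)) : Matrix (Fin 8) (Fin 8) F := ((g : GL (Fin 8) F) : Matrix (Fin 8) (Fin 8) F)

/-- `Φ` realises the action -/
def IsPhi (Φ : ↥(Gam F) →* ↥(Cfsg.Lie.G2 F)) : Prop :=
  ∀ (γ : ↥(Gam F)) (x : M2 F × M2 F), mt (Φ γ) *ᵥ th x = th (act (γ : GL (Fin 2) F × GL (Fin 2) F) x)

/-- a pair of equal scalars -/
def IsSc (γ : GL (Fin 2) F × GL (Fin 2) F) : Prop :=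
  ∃ a : F, (γ.1 : M2 F) = a • (1 : M2 F) ∧ (γ.2 : M2 F) = a • (1 : M2 F)

/-- element of `Gam F` -/
def mkG (c r : GL (Fin 2) F)
    (h : Matrix.GeneralLinearGroup.det c = Matrix.GeneralLinearGroup.det r) : ↥(Gam F) := ⟨(c, r), h⟩

theorem det_neg_one : Matrix.GeneralLinearGroup.det (-1 : GL (Fin 2) F) = 1 := by
  ext
  simp [Matrix.det_neg]

/-- the pair `(1, -1)`; `Φ tG` is the involution `t` -/
def tG : ↥(Gam F) := mkG 1 (-1) (by rw [det_neg_one, map_one])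

def rot (x y : F) : M2 F := !![x, -y; y, x]

def ref (x y : F) : M2 F := !![x, -y; -y, -x]

theorem det_rot (x y : F) : (rot x y).det = x ^ 2 + y ^ 2 := by
  simp [rot, Matrix.det_fin_two]; ring

theorem det_ref (x y : F) : (ref x y).det = -(x ^ 2 + y ^ 2) := by
  simp [ref, Matrix.det_fin_two]; ring

noncomputable def rotG (x y : F) (h : x ^ 2 + y ^ 2 ≠ 0) : GL (Fin 2) F :=
  Matrix.GeneralLinearGroup.mkOfDetNeZero (rot x y) (by rw [det_rot]; exact h)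

noncomputable def refG (x y : F) (h : x ^ 2 + y ^ 2 ≠ 0) : GL (Fin 2) F :=
  Matrix.GeneralLinearGroup.mkOfDetNeZero (ref x y) (by rw [det_ref]; exact neg_ne_zero.2 h)

theorem coe_rotG (x y : F) (h : x ^ 2 + y ^ 2 ≠ 0) : (rotG x y h : M2 F) = rot x y := rfl

theorem coe_refG (x y : F) (h : x ^ 2 + y ^ 2 ≠ 0) : (refG x y h : M2 F) = ref x y := rfl

theorem det_rotG (x y : F) (h : x ^ 2 + y ^ 2 ≠ 0) :
    ((Matrix.GeneralLinearGroup.det (rotG x y h) : Fˣ) : F) = x ^ 2 + y ^ 2 := det_rot x y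

theorem det_refG (x y : F) (h : x ^ 2 + y ^ 2 ≠ 0) :
    ((Matrix.GeneralLinearGroup.det (refG x y h) : Fˣ) : F) = -(x ^ 2 + y ^ 2) := det_ref x y

/-- `J = rot 0 1`, of order 4 -/
noncomputable def Jg (F : Type*) [Field F] : GL (Fin 2) F := rotG 0 1 (by simp)

/-- `K = ref x₀ y₀` with `x₀² + y₀² = -1`: order 4, determinant 1, `K J K⁻¹ = J⁻¹` -/
noncomputable def Kg (x₀ y₀ : F) (h : x₀ ^ 2 + y₀ ^ 2 = -1) : GL (Fin 2) F :=
  refG x₀ y₀ (by rw [h]; simp)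

theorem det_Jg : Matrix.GeneralLinearGroup.det (Jg F) = 1 := by
  ext
  rw [Jg, det_rotG]
  simp

theorem det_Kg (x₀ y₀ : F) (h : x₀ ^ 2 + y₀ ^ 2 = -1) :
    Matrix.GeneralLinearGroup.det (Kg x₀ y₀ h) = 1 := by
  ext
  rw [Kg, det_refG, h]
  simp

/-- the torus `{rot x y}` -/
noncomputable def ET (F : Type*) [Field F] : Subgroup (GL (Fin 2) F) := Subgroup.centralizer {Jg F}

/-- its normaliser `{rot x y} ∪ {ref x y}` -/
noncomputable def NT (F : Type*) [Field F] : Subgroup (GL (Fin 2) F) :=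
  Subgroup.normalizer ((Subgroup.zpowers (Jg F) : Subgroup (GL (Fin 2) F)) : Set (GL (Fin 2) F))

noncomputable def GN (F : Type*) [Field F] : Subgroup ↥(Gam F) := ((NT F).prod (NT F)).subgroupOf (Gam F)

noncomputable def GA (F : Type*) [Field F] : Subgroup ↥(Gam F) := ((ET F).prod (ET F)).subgroupOf (Gam F)

theorem mem_GN (γ : ↥(Gam F)) : γ ∈ GN F ↔ γ.1.1 ∈ NT F ∧ γ.1.2 ∈ NT F := by
  rw [GN, Subgroup.mem_subgroupOf, Subgroup.mem_prod]

theorem mem_GA (γ : ↥(Gam F)) : γ ∈ GA F ↔ γ.1.1 ∈ ET F ∧ γ.1.2 ∈ ET F := by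
  rw [GA, Subgroup.mem_subgroupOf, Subgroup.mem_prod]

/-- `(s, 1)` and `(1, s)` for `det s = 1` -/
def iL (s : GL (Fin 2) F) (h : Matrix.GeneralLinearGroup.det s = 1) : ↥(Gam F) :=
  mkG s 1 (by rw [h, map_one])

def iR (s : GL (Fin 2) F) (h : Matrix.GeneralLinearGroup.det s = 1) : ↥(Gam F) :=
  mkG 1 s (by rw [h, map_one])

/-- the group `Q₈ × Q₈` -/
noncomputable def UU (x₀ y₀ : F) (h : x₀ ^ 2 + y₀ ^ 2 = -1) : Subgroup ↥(Gam F) :=
  (Subgroup.zpowers (iL (Jg F) det_Jg) ⊔ Subgroup.zpowers (iL (Kg x₀ y₀ h) (det_Kg x₀ y₀ h))) ⊔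
    (Subgroup.zpowers (iR (Jg F) det_Jg) ⊔ Subgroup.zpowers (iR (Kg x₀ y₀ h) (det_Kg x₀ y₀ h)))

/-- `q - ε`, where `q ≡ ε mod 4` -/
def e1 (F : Type*) [Fintype F] : ℕ :=
  if Fintype.card F % 4 = 1 then Fintype.card F - 1 else Fintype.card F + 1

end Cfsg.Agent.Lib.H58G2Defs
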