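import Mathlib
import Cfsg.Agent.Lib.H58G2Defs

/-! PROJECT 4632 (row S4632, 10u), piece `ActMul`.  Overview: notes/helper58/G2/README.md. -/

set_option autoImplicit false

namespace Cfsg.Agent.Lib.H58G2ActMul

open Matrix Cfsg.Agent.Lib.H58G2Defs
open scoped MatrixGroups

variable {F : Type*} [Field F]

theorem act_cdMul_aux (c c' r : M2 F) (hcc' : c * c' = 1) (hc'c : c' * c = 1) (hdet : c.det = r.det)
    (x₁ x₂ y₁ y₂ : M2 F) :
    c * (x₁ * y₁ + adjugate y₂ * x₂) * c' =
        (c * x₁ * c') * (c * y₁ * c') + adjugate (r * y₂ * c') * (r * x₂ * c') ∧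
      r * (y₂ * x₁ + x₂ * adjugate y₁) * c' =
        (r * y₂ * c') * (c * x₁ * c') + (r * x₂ * c') * adjugate (c * y₁ * c') := by
  set d := c.det with hd
  set e := c'.det with he
  have hde : d * e = 1 := by rw [hd, he, ← Matrix.det_mul, hcc', Matrix.det_one]
  have h1 : adjugate c' = e • c := by
    calc adjugate c' = adjugate c' * (c' * c) := by rw [hc'c, Matrix.mul_one]
      _ = (adjugate c' * c') * c := by rw [Matrix.mul_assoc]
      _ = e • c := by rw [Matrix.adjugate_mul, Matrix.smul_mul, Matrix.one_mul]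
  have h2 : adjugate c = d • c' := by
    calc adjugate c = adjugate c * (c * c') := by rw [hcc', Matrix.mul_one]
      _ = (adjugate c * c) * c' := by rw [Matrix.mul_assoc]
      _ = d • c' := by rw [Matrix.adjugate_mul, Matrix.smul_mul, Matrix.one_mul]
  have h3 : adjugate r * r = d • (1 : M2 F) := by rw [Matrix.adjugate_mul, ← hdet]
  have t1 : ∀ a u v : M2 F, (a * u * c') * (c * v * c') = a * (u * v) * c' := by
    intro a u v
    calc (a * u * c') * (c * v * c') = a * u * (c' * c) * v * c' := by simp only [Matrix.mul_assoc]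
      _ = a * (u * v) * c' := by rw [hc'c, Matrix.mul_one]; simp only [Matrix.mul_assoc]
  have t2 : adjugate (r * y₂ * c') * (r * x₂ * c') = c * (adjugate y₂ * x₂) * c' := by
    rw [Matrix.adjugate_mul_distrib, Matrix.adjugate_mul_distrib, h1]
    calc (e • c) * (adjugate y₂ * adjugate r) * (r * x₂ * c')
        = e • (c * adjugate y₂ * (adjugate r * r) * x₂ * c') := by
          simp only [Matrix.smul_mul, Matrix.mul_assoc]
      _ = (e * d) • (c * (adjugate y₂ * x₂) * c') := by
          rw [h3]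
          simp only [Matrix.mul_smul, Matrix.smul_mul, Matrix.mul_one, smul_smul, Matrix.mul_assoc]
      _ = _ := by rw [mul_comm e d, hde, one_smul]
  have t3 : (r * x₂ * c') * adjugate (c * y₁ * c') = r * (x₂ * adjugate y₁) * c' := by
    rw [Matrix.adjugate_mul_distrib, Matrix.adjugate_mul_distrib, h1, h2]
    calc (r * x₂ * c') * ((e • c) * (adjugate y₁ * (d • c')))
        = (e * d) • (r * x₂ * (c' * c) * adjugate y₁ * c') := by
          simp only [Matrix.mul_smul, Matrix.smul_mul, smul_smul, Matrix.mul_assoc, mul_comm d e]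
      _ = _ := by
          rw [mul_comm e d, hde, one_smul, hc'c, Matrix.mul_one]
          simp only [Matrix.mul_assoc]
  constructor
  · rw [t1, t2, Matrix.mul_add, Matrix.add_mul]
  · rw [t1, t3, Matrix.mul_add, Matrix.add_mul]

theorem act_cdMul (γ : GL (Fin 2) F × GL (Fin 2) F) (hγ : γ ∈ Gam F) (x y : M2 F × M2 F) :
    act γ (cdMul x y) = cdMul (act γ x) (act γ y) := by
  have hcc' : (γ.1 : M2 F) * ((γ.1⁻¹ : GL (Fin 2) F) : M2 F) = 1 := by
    rw [← Units.val_mul, mul_inv_cancel, Units.val_one]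
  have hc'c : ((γ.1⁻¹ : GL (Fin 2) F) : M2 F) * (γ.1 : M2 F) = 1 := by
    rw [← Units.val_mul, inv_mul_cancel, Units.val_one]
  have hdet : (γ.1 : M2 F).det = (γ.2 : M2 F).det := by
    have := congrArg (fun u : Fˣ => (u : F)) ((mem_Gam γ).1 hγ)
    simpa using this
  obtain ⟨h1, h2⟩ := act_cdMul_aux _ _ _ hcc' hc'c hdet x.1 x.2 y.1 y.2
  exact Prod.ext h1 h2

theorem act_one (x : M2 F × M2 F) : act (1 : GL (Fin 2) F × GL (Fin 2) F) x = x := by
  simp [act]

theorem act_mul (γ γ' : GL (Fin 2) F × GL (Fin 2) F) (x : M2 F × M2 F) :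
    act (γ * γ') x = act γ (act γ' x) := by
  simp only [act, Prod.fst_mul, Prod.snd_mul, _root_.mul_inv_rev, Units.val_mul, Matrix.mul_assoc]

theorem act_add (γ : GL (Fin 2) F × GL (Fin 2) F) (x y : M2 F × M2 F) :
    act γ (x + y) = act γ x + act γ y := by
  simp only [act, Prod.fst_add, Prod.snd_add, Matrix.mul_add, Matrix.add_mul, Prod.mk_add_mk]

theorem act_smul (γ : GL (Fin 2) F × GL (Fin 2) F) (a : F) (x : M2 F × M2 F) :
    act γ (a • x) = a • act γ x := by
  simp only [act, Prod.smul_fst, Prod.smul_snd, Matrix.mul_smul, Matrix.smul_mul, Prod.smul_mk]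

end Cfsg.Agent.Lib.H58G2ActMul
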