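import Mathlib
import Cfsg.Agent.Lib.H58G2Defs

/-! PROJECT 4632 (row S4632, 10u), piece `CardE1`.  Overview: notes/helper58/G2/README.md.
(90 min.)  Number of points of the circle `x² + y² = 1` over `F_q`, `q` odd: `q - 1` if `q ≡ 1 mod 4`, `q + 1` if `q ≡ 3 mod 4`.
Route A (parametrisation): `m ↦ ((1 - m²)/(1 + m²), 2m/(1 + m²))` is a bijection from `{m | m² ≠ -1}` onto the circle minus `(-1, 0)` (inverse `(x, y) ↦ y/(1 + x)`); `#{m | m² = -1}` is `2` or `0` (`FiniteField.isSquare_neg_one_iff : IsSquare (-1) ↔ q % 4 ≠ 3`).
Route B: `Cfsg.Agent.Lib.Helper7SylCardplane.card_plane` gives `|O(x² + y²)| = 2 (q ∓ 1)`, and the isometries of `x² + y²` are the matrices `rot x y`, `ref x y` with `x² + y² = 1`.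
Route C: if `i² = -1`: `(x, y) ↦ x + i y` is a bijection onto `Fˣ` (`(x + iy)(x - iy) = 1`).  If `-1` is not a square: count pairs via `∑_d #{x²+y²=d}`, all `d ≠ 0` have the same number of solutions (multiply by a solution of norm `d`, `exists_norm`), and `x² + y² = 0` only for `(0,0)`: `q² - 1 = (q - 1) n`.
-/

set_option autoImplicit false

namespace Cfsg.Agent.Lib.H58G2CardE1

open Matrix Cfsg.Agent.Lib.H58G2Defs
open scoped MatrixGroups

variable {F : Type*} [Field F]

theorem two_ne_zero_of_odd [Fintype F] (hF : Odd (Fintype.card F)) : (2 : F) ≠ 0 := by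
  have h : ringChar F ≠ 2 := by
    intro h
    have h1 := FiniteField.even_card_of_char_two h
    have h3 := Nat.odd_iff.1 hF
    omega
  exact Ring.two_ne_zero h

/-- the rational parametrisation of the circle -/
noncomputable def par (o : Option {m : F // 1 + m ^ 2 ≠ 0}) : {p : F × F // p.1 ^ 2 + p.2 ^ 2 = 1} :=
  match o with
  | none => ⟨(-1, 0), by ring⟩
  | some m => ⟨((1 - m.1 ^ 2) / (1 + m.1 ^ 2), 2 * m.1 / (1 + m.1 ^ 2)), by
      have := m.2
      field_simp
      ring⟩

theorem par_injective (h2 : (2 : F) ≠ 0) : Function.Injective (par (F := F)) := by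
  have key : ∀ m : {m : F // 1 + m ^ 2 ≠ 0}, par (some m) ≠ par none := by
    intro m h
    have h1 := congrArg (fun p => p.1.1) h
    simp only [par] at h1
    have hm := m.2
    rw [div_eq_iff hm] at h1
    apply h2
    linear_combination h1
  have key2 : ∀ m : {m : F // 1 + m ^ 2 ≠ 0},
      (par (some m)).1.2 / (1 + (par (some m)).1.1) = m.1 := by
    intro m
    have hm := m.2
    simp only [par]
    have e : 1 + (1 - m.1 ^ 2) / (1 + m.1 ^ 2) = 2 / (1 + m.1 ^ 2) := by
      field_simp
      ring
    rw [e]
    field_simp
  intro a b hab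
  cases a with
  | none =>
    cases b with
    | none => rfl
    | some m => exact absurd hab.symm (key m)
  | some m =>
    cases b with
    | none => exact absurd hab (key m)
    | some m' =>
      congr 1
      apply Subtype.ext
      rw [← key2 m, ← key2 m', hab]

theorem par_surjective (h2 : (2 : F) ≠ 0) : Function.Surjective (par (F := F)) := by
  rintro ⟨⟨x, y⟩, hxy⟩
  simp only at hxy
  by_cases hx : 1 + x = 0
  · refine ⟨none, ?_⟩
    have hx' : x = -1 := by linear_combination hx
    subst hx'
    have hy : y = 0 := by
      have : y ^ 2 = 0 := by linear_combination hxy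
      exact pow_eq_zero_iff (two_ne_zero) |>.1 this
    subst hy
    rfl
  · have e : 1 + (y / (1 + x)) ^ 2 = 2 / (1 + x) := by
      field_simp
      linear_combination hxy
    have hm : 1 + (y / (1 + x)) ^ 2 ≠ 0 := by
      rw [e]
      exact div_ne_zero h2 hx
    refine ⟨some ⟨y / (1 + x), hm⟩, ?_⟩
    apply Subtype.ext
    simp only [par]
    have e' : 1 - (y / (1 + x)) ^ 2 = 2 - 2 / (1 + x) := by
      linear_combination -e
    rw [e, e']
    ext
    · simp only
      field_simp
      ring
    · simp only
      field_simp

theorem card_roots [Fintype F] [DecidableEq F] (hF : Odd (Fintype.card F)) :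
    Fintype.card {m : F // 1 + m ^ 2 = 0} = if Fintype.card F % 4 = 1 then 2 else 0 := by
  have h2 := two_ne_zero_of_odd hF
  split_ifs with h
  · have hsq : IsSquare (-1 : F) := FiniteField.isSquare_neg_one_iff.2 (by omega)
    obtain ⟨i, hi⟩ := hsq
    have hne : i ≠ -i := by
      intro hh
      have h0 : 2 * i = 0 := by linear_combination hh
      have hi0 : i = 0 := (mul_eq_zero.1 h0).resolve_left h2
      rw [hi0] at hi
      simp at hi
    rw [Fintype.card_subtype]
    have : (Finset.univ.filter fun m : F => 1 + m ^ 2 = 0) = {i, -i} := by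
      ext m
      simp only [Finset.mem_filter, Finset.mem_univ, true_and, Finset.mem_insert,
        Finset.mem_singleton]
      constructor
      · intro hm
        have : (m - i) * (m + i) = 0 := by linear_combination hm + hi
        rcases mul_eq_zero.1 this with h' | h'
        · left; linear_combination h'
        · right; linear_combination h'
      · rintro (rfl | rfl)
        · linear_combination -hi
        · linear_combination -hi
    rw [this, Finset.card_pair hne]
  · have hns : ¬ IsSquare (-1 : F) := by
      rw [FiniteField.isSquare_neg_one_iff]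
      have := Nat.odd_iff.1 hF
      omega
    rw [Fintype.card_eq_zero_iff]
    refine ⟨fun m => hns ⟨m.1, ?_⟩⟩
    linear_combination -m.2

theorem card_circle [Fintype F] (hF : Odd (Fintype.card F)) :
    Nat.card {p : F × F // p.1 ^ 2 + p.2 ^ 2 = 1} = e1 F := by
  classical
  have h2 := two_ne_zero_of_odd hF
  rw [← Nat.card_congr (Equiv.ofBijective par ⟨par_injective h2, par_surjective h2⟩),
    Nat.card_eq_fintype_card, Fintype.card_option, Fintype.card_subtype_compl, card_roots hF, e1]
  have hq : 2 < Fintype.card F := by
    have h1 : 1 < Fintype.card F := Fintype.one_lt_card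
    have := Nat.odd_iff.1 hF
    omega
  split_ifs <;> omega

end Cfsg.Agent.Lib.H58G2CardE1
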