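import Mathlib
import Cfsg.Agent.Lib.H58G2Defs

/-! PROJECT 4632 (row S4632, 10u), piece `Forms`.  Overview: notes/helper58/G2/README.md.
(60 min, 2 x 2 matrices.)  With `c = !![p, q; r, s]`, `J = !![0, -1; 1, 0]`: `c J = J c ↔ q = -r ∧ p = s`; `c J = - J c ↔ q = r ∧ s = -p`.
`mem_ET_iff`: `Subgroup.mem_centralizer_singleton_iff`, compare matrices (`Units.ext`, `Matrix.ext`, `Fin.forall_fin_two`).
`mem_NT_iff` (→): `c J c⁻¹ ∈ zpowers J`, `J ^ 4 = 1`, so `c J c⁻¹ ∈ {1, J, J², J³}`, `J² = -1`; the square of `c J c⁻¹` is `-1 ≠ 1`, so `c J c⁻¹ = ± J`.  (←): `c J c⁻¹ = J` or `J⁻¹`, so conjugation by `c` maps `zpowers J` onto itself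
(`Subgroup.mem_normalizer_iff`; a power of `J` is sent to the same power of `J^{±1}`).
-/

set_option autoImplicit false

namespace Cfsg.Agent.Lib.H58G2Forms

open Matrix Cfsg.Agent.Lib.H58G2Defs
open scoped MatrixGroups

variable {F : Type*} [Field F]

theorem rot_mul_rot (x y x' y' : F) : rot x y * rot x' y' = rot (x * x' - y * y') (x * y' + y * x') := by
  ext i j
  fin_cases i <;> fin_cases j <;> simp [rot, Matrix.mul_apply, Fin.sum_univ_two] <;> ring

theorem ref_mul_ref (x y x' y' : F) : ref x y * ref x' y' = rot (x * x' + y * y') (x * y' - y * x') := by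
  ext i j
  fin_cases i <;> fin_cases j <;> simp [rot, ref, Matrix.mul_apply, Fin.sum_univ_two] <;> ring

theorem ref_mul_rot (x y x' y' : F) : ref x y * rot x' y' = ref (x * x' - y * y') (x * y' + y * x') := by
  ext i j
  fin_cases i <;> fin_cases j <;> simp [rot, ref, Matrix.mul_apply, Fin.sum_univ_two] <;> ring

theorem rot_mul_ref (x y x' y' : F) : rot x y * ref x' y' = ref (x * x' + y * y') (x * y' - y * x') := by
  ext i j
  fin_cases i <;> fin_cases j <;> simp [rot, ref, Matrix.mul_apply, Fin.sum_univ_two] <;> ring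

theorem coe_Jg : ((Jg F : GL (Fin 2) F) : M2 F) = rot 0 1 := rfl

/-- `c J = J c` in coordinates -/
theorem comm_J_iff (c : M2 F) : rot 0 1 * c = c * rot 0 1 ↔ c = rot (c 0 0) (c 1 0) := by
  constructor
  · intro h
    have h00 := congrFun (congrFun h 0) 0
    have h01 := congrFun (congrFun h 0) 1
    simp [rot, Matrix.mul_apply, Fin.sum_univ_two] at h00 h01
    ext i j
    fin_cases i <;> fin_cases j <;> simp [rot]
    · linear_combination -h00
    · linear_combination h01
  · intro h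
    rw [h, rot_mul_rot, rot_mul_rot]
    congr 1 <;> ring

/-- `c J = - J c` in coordinates -/
theorem anti_J_iff (c : M2 F) : rot 0 (-1) * c = c * rot 0 1 ↔ c = ref (c 0 0) (- c 0 1) := by
  constructor
  · intro h
    have h00 := congrFun (congrFun h 0) 0
    have h01 := congrFun (congrFun h 0) 1
    simp [rot, Matrix.mul_apply, Fin.sum_univ_two] at h00 h01
    ext i j
    fin_cases i <;> fin_cases j <;> simp [ref]
    · linear_combination h00
    · linear_combination h01
  · intro h
    rw [h, rot_mul_ref, ref_mul_rot]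
    congr 1 <;> ring

theorem mem_ET_iff (c : GL (Fin 2) F) : c ∈ ET F ↔ ∃ x y : F, (c : M2 F) = rot x y := by
  rw [ET, Subgroup.mem_centralizer_singleton_iff, Units.ext_iff, Units.val_mul, Units.val_mul,
    coe_Jg, eq_comm, comm_J_iff]
  constructor
  · intro h
    exact ⟨_, _, h⟩
  · rintro ⟨x, y, h⟩
    rw [h]
    simp [rot]

theorem mem_NT_of (c : GL (Fin 2) F) (h1 : c * Jg F * c⁻¹ ∈ Subgroup.zpowers (Jg F))
    (h2 : c⁻¹ * Jg F * c ∈ Subgroup.zpowers (Jg F)) : c ∈ NT F := by
  rw [NT, Subgroup.mem_normalizer_iff]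
  intro h
  constructor
  · intro hh
    obtain ⟨k, rfl⟩ := Subgroup.mem_zpowers_iff.1 hh
    rw [← conj_zpow]
    exact Subgroup.zpow_mem _ h1 k
  · intro hh
    obtain ⟨k, hk⟩ := Subgroup.mem_zpowers_iff.1 hh
    have e : h = (c⁻¹ * Jg F * c) ^ k := by
      have e1 := conj_zpow (a := c⁻¹) (b := Jg F) (i := k)
      rw [inv_inv] at e1
      rw [e1, hk]
      group
    rw [e]
    exact Subgroup.zpow_mem _ h2 k

theorem ET_le_NT : ET F ≤ NT F := by
  intro c hc
  rw [ET, Subgroup.mem_centralizer_singleton_iff] at hc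
  apply mem_NT_of
  · rw [hc, mul_inv_cancel_right]
    exact Subgroup.mem_zpowers _
  · rw [mul_assoc, ← hc, inv_mul_cancel_left]
    exact Subgroup.mem_zpowers _

theorem Jg_sq : ((Jg F ^ 2 : GL (Fin 2) F) : M2 F) = rot (-1) 0 := by
  rw [pow_two, Units.val_mul, coe_Jg, rot_mul_rot]
  congr 1 <;> ring

theorem Jg_cube : ((Jg F ^ 3 : GL (Fin 2) F) : M2 F) = rot 0 (-1) := by
  rw [pow_succ, Units.val_mul, Jg_sq, coe_Jg, rot_mul_rot]
  congr 1 <;> ring

theorem Jg_four : (Jg F ^ 4 : GL (Fin 2) F) = 1 := by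
  apply Units.ext
  rw [pow_succ, Units.val_mul, Jg_cube, coe_Jg, rot_mul_rot]
  ext i j
  fin_cases i <;> fin_cases j <;> simp [rot]

theorem Jg_inv : ((Jg F)⁻¹ : GL (Fin 2) F) = Jg F ^ 3 := by
  apply inv_eq_of_mul_eq_one_right
  rw [← pow_succ', Jg_four]

theorem mem_NT_iff (h2 : (2 : F) ≠ 0) (c : GL (Fin 2) F) :
    c ∈ NT F ↔ ∃ x y : F, (c : M2 F) = rot x y ∨ (c : M2 F) = ref x y := by
  constructor
  · intro hc
    rw [NT, Subgroup.mem_normalizer_iff] at hc
    have h1 := (hc (Jg F)).1 (Subgroup.mem_zpowers _)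
    obtain ⟨k, hk⟩ := Subgroup.mem_zpowers_iff.1 h1
    have h4 : (Jg F : GL (Fin 2) F) ^ (4 : ℤ) = 1 := by
      have := Jg_four (F := F)
      exact_mod_cast this
    rw [zpow_eq_zpow_emod k h4] at hk
    have hkc : Jg F ^ (k % 4) * c = c * Jg F := by
      rw [hk]
      group
    have hcancel : ∀ X : M2 F, X * (c : M2 F) = (c : M2 F) * X →
        X * (c : M2 F) = (c : M2 F) * rot 0 1 → X = rot 0 1 := by
      intro X hX hX2
      rw [hX] at hX2
      have := congrArg (fun Y => ((c⁻¹ : GL (Fin 2) F) : M2 F) * Y) hX2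
      simpa [← mul_assoc, ← Units.val_mul] using this
    have hcases : k % 4 = 0 ∨ k % 4 = 1 ∨ k % 4 = 2 ∨ k % 4 = 3 := by omega
    rcases hcases with h0 | h0 | h0 | h0
    · exfalso
      rw [h0, zpow_zero, one_mul] at hkc
      have h5 := congrArg Units.val hkc
      rw [Units.val_mul, coe_Jg] at h5
      have h6 := hcancel 1 (by simp) (by rw [one_mul]; exact h5)
      have := congrFun (congrFun h6 0) 0
      simp [rot] at this
    · rw [h0, zpow_one] at hkc
      have h5 := congrArg Units.val hkc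
      rw [Units.val_mul, Units.val_mul, coe_Jg] at h5
      exact ⟨_, _, Or.inl ((comm_J_iff _).1 h5)⟩
    · exfalso
      have e : (Jg F : GL (Fin 2) F) ^ (2 : ℤ) = Jg F ^ 2 := by exact_mod_cast rfl
      rw [h0, e] at hkc
      have h5 := congrArg Units.val hkc
      rw [Units.val_mul, Units.val_mul, coe_Jg, Jg_sq] at h5
      have hneg : rot (-1 : F) 0 = -1 := by
        ext i j
        fin_cases i <;> fin_cases j <;> simp [rot]
      have h6 := hcancel (rot (-1) 0) (by rw [hneg]; simp) h5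
      have := congrFun (congrFun h6 0) 0
      simp [rot] at this
    · have e : (Jg F : GL (Fin 2) F) ^ (3 : ℤ) = Jg F ^ 3 := by exact_mod_cast rfl
      rw [h0, e] at hkc
      have h5 := congrArg Units.val hkc
      rw [Units.val_mul, Units.val_mul, coe_Jg, Jg_cube] at h5
      exact ⟨_, _, Or.inr ((anti_J_iff _).1 h5)⟩
  · rintro ⟨x, y, h | h⟩
    · exact ET_le_NT ((mem_ET_iff c).2 ⟨x, y, h⟩)
    · have hanti : Jg F ^ 3 * c = c * Jg F := by
        apply Units.ext
        rw [Units.val_mul, Units.val_mul, coe_Jg, Jg_cube, h, rot_mul_ref, ref_mul_rot]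
        congr 1 <;> ring
      apply mem_NT_of
      · rw [← hanti, mul_inv_cancel_right]
        exact Subgroup.pow_mem _ (Subgroup.mem_zpowers _) 3
      · have e : c⁻¹ * Jg F * c = Jg F ^ 3 := by
          have h7 : Jg F * c = c * Jg F ^ 3 := by
            have h8 : Jg F * (Jg F ^ 3 * c) * Jg F ^ 3 = Jg F * (c * Jg F) * Jg F ^ 3 := by
              rw [hanti]
            have h9 : Jg F * (Jg F ^ 3 * c) * Jg F ^ 3 = c * Jg F ^ 3 := by
              rw [← mul_assoc, ← pow_succ', Jg_four, one_mul]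
            have h10 : Jg F * (c * Jg F) * Jg F ^ 3 = Jg F * c := by
              rw [mul_assoc, mul_assoc, ← pow_succ', Jg_four, mul_one]
            rw [← h10, ← h8, h9]
          rw [mul_assoc, h7, inv_mul_cancel_left]
        rw [e]
        exact Subgroup.pow_mem _ (Subgroup.mem_zpowers _) 3

end Cfsg.Agent.Lib.H58G2Forms
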