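import Mathlib
import Cfsg.Agent.Lib.H58G2Defs
import Cfsg.Agent.Lib.H58G2Forms

/-! PROJECT 4632 (row S4632, 10u), piece `Hilb`.  Overview: notes/helper58/G2/README.md.
(45 min.)  `hilbert90`: if `x ≠ -1` take `(a, b) = (1 + x, -y)`: `a² + b² = 2 (1 + x) ≠ 0`, and `rot x y * rot (1+x) (-y) = rot (x + x² + y²) (y + ...) = rot (1 + x) y` (`rot_mul_rot`, use `h`).  If `x = -1` then `y = 0`; take `(a, b) = (0, 1)`.
`exists_norm`: every element of a finite field is a sum of two squares (`FiniteField.exists_root_sum_quadratic`, or look for `exists_sq_add_sq` in Mathlib / `Cfsg/Agent/Lib`).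
-/

set_option autoImplicit false

namespace Cfsg.Agent.Lib.H58G2Hilb

open Matrix Cfsg.Agent.Lib.H58G2Defs
open scoped MatrixGroups
open Cfsg.Agent.Lib.H58G2Forms

variable {F : Type*} [Field F]

theorem hilbert90 (h2 : (2 : F) ≠ 0) (x y : F) (h : x ^ 2 + y ^ 2 = 1) :
    ∃ a b : F, a ^ 2 + b ^ 2 ≠ 0 ∧ rot x y * rot a b = rot a (-b) := by
  by_cases hx : x = -1
  · have hy : y = 0 := by
      rw [hx] at h
      have : y ^ 2 = 0 := by linear_combination h
      exact pow_eq_zero_iff (by norm_num) |>.1 this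
    refine ⟨0, 1, by simp, ?_⟩
    rw [rot_mul_rot, hx, hy]
    congr 1 <;> ring
  · refine ⟨1 + x, -y, ?_, ?_⟩
    · have h1 : (1 + x) ^ 2 + (-y) ^ 2 = 2 * (1 + x) := by linear_combination h
      rw [h1]
      refine mul_ne_zero h2 ?_
      intro h0
      exact hx (by linear_combination h0)
    · rw [rot_mul_rot]
      congr 1
      · linear_combination h
      · ring

theorem exists_norm [Fintype F] (d : F) : ∃ x y : F, x ^ 2 + y ^ 2 = d := by
  classical
  by_cases h2 : ringChar F = 2
  · obtain ⟨a, ha⟩ := FiniteField.isSquare_of_char_two h2 d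
    exact ⟨a, 0, by rw [ha]; ring⟩
  · have hodd : Fintype.card F % 2 = 1 := FiniteField.odd_card_of_char_ne_two h2
    obtain ⟨a, b, hab⟩ := FiniteField.exists_root_sum_quadratic
      (f := (Polynomial.X ^ 2 : Polynomial F)) (g := Polynomial.X ^ 2 - Polynomial.C d)
      (Polynomial.degree_X_pow 2) (Polynomial.degree_X_pow_sub_C (by decide) _) hodd
    refine ⟨a, b, ?_⟩
    simp only [Polynomial.eval_pow, Polynomial.eval_X, Polynomial.eval_sub, Polynomial.eval_C] at hab
    linear_combination hab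

theorem exists_neg_one [Fintype F] : ∃ x₀ y₀ : F, x₀ ^ 2 + y₀ ^ 2 = -1 := exists_norm (-1)

end Cfsg.Agent.Lib.H58G2Hilb
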