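import Mathlib
import Cfsg.Agent.Lib.H58G2Defs
import Cfsg.Agent.Lib.H58G2Forms
import Cfsg.Agent.Lib.H58G2Hilb
import Cfsg.Agent.Lib.H58G2CardE1

/-! PROJECT 4632 (row S4632, 10u), piece `CardNT`.  Overview: notes/helper58/G2/README.md.
(90 min.)  `K1 := NT F ⊓ det.ker` consists of the `rot x y` with `x² + y² = 1` and the `ref x y` with `x² + y² = -1` (`mem_NT_iff`, `det_rot`, `det_ref`).  The second set is in bijection with the first one: multiply by the fixed `rot x₀ y₀`, `x₀² + y₀² = -1`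
(`exists_neg_one`; `ref x y * rot x₀ y₀`-type formulas), and the two sets are disjoint (`rot x y = ref x' y'` forces `x = y = 0`, as `2 ≠ 0`).  So `|K1| = 2 * e1 F` (`card_circle`).
`det : NT F → Fˣ` is onto (`exists_norm`, `rotG`), with kernel `K1`: `|NT F| = (q - 1) |K1|` (`Subgroup.card_eq_card_quotient_mul_card_subgroup` / `MonoidHom` first isomorphism theorem; `Nat.card Fˣ = q - 1`).
-/

set_option autoImplicit false

namespace Cfsg.Agent.Lib.H58G2CardNT

open Matrix Cfsg.Agent.Lib.H58G2Defs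
open scoped MatrixGroups
open Cfsg.Agent.Lib.H58G2Forms
open Cfsg.Agent.Lib.H58G2Hilb
open Cfsg.Agent.Lib.H58G2CardE1

variable {F : Type*} [Field F]

theorem two_ne [Fintype F] (hF : Odd (Fintype.card F)) : (2 : F) ≠ 0 := by
  apply Ring.two_ne_zero
  intro h
  have := FiniteField.even_card_iff_char_two.mp h
  rw [Nat.odd_iff] at hF
  omega

abbrev Circ (F : Type*) [Field F] := {p : F × F // p.1 ^ 2 + p.2 ^ 2 = 1}

noncomputable abbrev K1 (F : Type*) [Field F] : Subgroup (GL (Fin 2) F) :=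
  NT F ⊓ (Matrix.GeneralLinearGroup.det (n := Fin 2) (R := F)).ker

theorem rotG_mem (h2 : (2 : F) ≠ 0) (c : Circ F) :
    rotG c.1.1 c.1.2 (by rw [c.2]; exact one_ne_zero) ∈ K1 F := by
  refine Subgroup.mem_inf.mpr ⟨(mem_NT_iff h2 _).mpr ⟨c.1.1, c.1.2, Or.inl rfl⟩, ?_⟩
  rw [MonoidHom.mem_ker]
  ext
  rw [det_rotG, c.2]
  rfl

theorem Kg_mem (h2 : (2 : F) ≠ 0) (x₀ y₀ : F) (h : x₀ ^ 2 + y₀ ^ 2 = -1) : Kg x₀ y₀ h ∈ K1 F :=
  Subgroup.mem_inf.mpr ⟨(mem_NT_iff h2 _).mpr ⟨x₀, y₀, Or.inr rfl⟩,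
    MonoidHom.mem_ker.mpr (det_Kg x₀ y₀ h)⟩

theorem rot_inj {x y x' y' : F} (h : rot x y = rot x' y') : x = x' ∧ y = y' := by
  have h1 := congrFun (congrFun h 0) 0
  have h2 := congrFun (congrFun h 1) 0
  simp [rot] at h1 h2
  exact ⟨h1, h2⟩

theorem rot_ne_ref (h2 : (2 : F) ≠ 0) {x y a b : F} (h : rot x y = ref a b) : x = 0 ∧ y = 0 := by
  have e1 := congrFun (congrFun h 0) 0
  have e2 := congrFun (congrFun h 1) 1
  have e3 := congrFun (congrFun h 0) 1
  have e4 := congrFun (congrFun h 1) 0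
  simp [rot, ref] at e1 e2 e3 e4
  constructor
  · have : 2 * x = 0 := by rw [two_mul]; nth_rewrite 1 [e1]; rw [e2]; ring
    exact (mul_eq_zero.mp this).resolve_left h2
  · have : 2 * y = 0 := by rw [two_mul]; nth_rewrite 1 [e3]; rw [e4]; ring
    exact (mul_eq_zero.mp this).resolve_left h2

theorem card_NT1 [Fintype F] (hF : Odd (Fintype.card F)) :
    Nat.card ↥(NT F ⊓ (Matrix.GeneralLinearGroup.det (n := Fin 2) (R := F)).ker) = 2 * e1 F := by
  classical
  have h2 := two_ne hF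
  obtain ⟨x₀, y₀, h0⟩ := exists_neg_one (F := F)
  let f : Circ F ⊕ Circ F → ↥(K1 F) := fun s =>
    match s with
    | Sum.inl c => ⟨_, rotG_mem h2 c⟩
    | Sum.inr c => ⟨_, (K1 F).mul_mem (Kg_mem h2 x₀ y₀ h0) (rotG_mem h2 c)⟩
  have hinj : Function.Injective f := by
    rintro (c | c) (c' | c') h
    · have h1 : rot c.1.1 c.1.2 = rot c'.1.1 c'.1.2 :=
        congrArg (fun g : ↥(K1 F) => ((g : GL (Fin 2) F) : M2 F)) h
      obtain ⟨e1, e2⟩ := rot_inj h1
      exact congrArg Sum.inl (Subtype.ext (Prod.ext e1 e2))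
    · exfalso
      have h1 : rot c.1.1 c.1.2 = ref x₀ y₀ * rot c'.1.1 c'.1.2 :=
        congrArg (fun g : ↥(K1 F) => ((g : GL (Fin 2) F) : M2 F)) h
      rw [ref_mul_rot] at h1
      obtain ⟨e1, e2⟩ := rot_ne_ref h2 h1
      have := c.2
      rw [e1, e2] at this
      simp at this
    · exfalso
      have h1 : ref x₀ y₀ * rot c.1.1 c.1.2 = rot c'.1.1 c'.1.2 :=
        congrArg (fun g : ↥(K1 F) => ((g : GL (Fin 2) F) : M2 F)) h
      rw [ref_mul_rot] at h1
      obtain ⟨e1, e2⟩ := rot_ne_ref h2 h1.symm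
      have := c'.2
      rw [e1, e2] at this
      simp at this
    · have h0' : Kg x₀ y₀ h0 * rotG c.1.1 c.1.2 (by rw [c.2]; exact one_ne_zero) =
          Kg x₀ y₀ h0 * rotG c'.1.1 c'.1.2 (by rw [c'.2]; exact one_ne_zero) :=
        congrArg (fun g : ↥(K1 F) => (g : GL (Fin 2) F)) h
      have h1' := mul_left_cancel h0'
      have h1 : rot c.1.1 c.1.2 = rot c'.1.1 c'.1.2 :=
        congrArg (fun g : GL (Fin 2) F => (g : M2 F)) h1'
      obtain ⟨e1, e2⟩ := rot_inj h1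
      exact congrArg Sum.inr (Subtype.ext (Prod.ext e1 e2))
  have hsurj : Function.Surjective f := by
    rintro ⟨g, hg⟩
    obtain ⟨hg1, hg2⟩ := Subgroup.mem_inf.mp hg
    rw [MonoidHom.mem_ker] at hg2
    have hdet : (g : M2 F).det = 1 := by
      have := congrArg (fun u : Fˣ => (u : F)) hg2
      simpa using this
    obtain ⟨x, y, hxy | hxy⟩ := (mem_NT_iff h2 g).mp hg1
    · have hn : x ^ 2 + y ^ 2 = 1 := by rw [← det_rot, ← hxy, hdet]
      refine ⟨Sum.inl ⟨(x, y), hn⟩, ?_⟩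
      apply Subtype.ext
      apply Units.ext
      exact hxy.symm
    · have hn : x ^ 2 + y ^ 2 = -1 := by
        have : -(x ^ 2 + y ^ 2) = 1 := by rw [← det_ref, ← hxy, hdet]
        linear_combination -this
      have hc : (-(x₀ * x + y₀ * y)) ^ 2 + (-(x₀ * y - y₀ * x)) ^ 2 = 1 := by
        have : (-(x₀ * x + y₀ * y)) ^ 2 + (-(x₀ * y - y₀ * x)) ^ 2 =
            (x₀ ^ 2 + y₀ ^ 2) * (x ^ 2 + y ^ 2) := by ring
        rw [this, h0, hn]; ring
      refine ⟨Sum.inr ⟨(-(x₀ * x + y₀ * y), -(x₀ * y - y₀ * x)), hc⟩, ?_⟩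
      apply Subtype.ext
      apply Units.ext
      show ref x₀ y₀ * rot (-(x₀ * x + y₀ * y)) (-(x₀ * y - y₀ * x)) = (g : M2 F)
      rw [ref_mul_rot, hxy]
      congr 1
      · linear_combination (-x) * h0
      · linear_combination (-y) * h0
  have e := Equiv.ofBijective f ⟨hinj, hsurj⟩
  have : Finite (Circ F) := inferInstance
  rw [← Nat.card_congr e, Nat.card_sum, card_circle hF, two_mul]

theorem card_NT [Fintype F] (hF : Odd (Fintype.card F)) :
    Nat.card ↥(NT F) = (Fintype.card F - 1) * (2 * e1 F) := by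
  classical
  have h2 := two_ne hF
  let φ : ↥(NT F) →* Fˣ := (Matrix.GeneralLinearGroup.det (n := Fin 2) (R := F)).comp (NT F).subtype
  have hφ : Function.Surjective φ := by
    intro d
    obtain ⟨x, y, hxy⟩ := exists_norm (F := F) (d : F)
    have hne : x ^ 2 + y ^ 2 ≠ 0 := by rw [hxy]; exact d.ne_zero
    refine ⟨⟨rotG x y hne, (mem_NT_iff h2 _).mpr ⟨x, y, Or.inl rfl⟩⟩, ?_⟩
    ext
    show ((Matrix.GeneralLinearGroup.det (rotG x y hne) : Fˣ) : F) = d
    rw [det_rotG, hxy]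
  have hker : φ.ker = (K1 F).subgroupOf (NT F) := by
    ext g
    rw [MonoidHom.mem_ker, Subgroup.mem_subgroupOf]
    constructor
    · intro h
      exact Subgroup.mem_inf.mpr ⟨g.2, MonoidHom.mem_ker.mpr h⟩
    · intro h
      exact MonoidHom.mem_ker.mp (Subgroup.mem_inf.mp h).2
  have hu : Nat.card Fˣ = Fintype.card F - 1 := by
    rw [Nat.card_eq_fintype_card, Fintype.card_units]
  have h1 := Subgroup.card_eq_card_quotient_mul_card_subgroup φ.ker
  rw [Nat.card_congr (QuotientGroup.quotientKerEquivOfSurjective φ hφ).toEquiv, hker,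
    Nat.card_congr (Subgroup.subgroupOfEquivOfLe (inf_le_left : K1 F ≤ NT F)).toEquiv,
    card_NT1 hF, hu] at h1
  exact h1

end Cfsg.Agent.Lib.H58G2CardNT
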