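import Mathlib
import Cfsg.Agent.Lib.H58G2Defs

/-! PROJECT 4632 (row S4632, 10u), piece `FixH`.  Overview: notes/helper58/G2/README.md. -/

set_option autoImplicit false

namespace Cfsg.Agent.Lib.H58G2FixH

open Matrix Cfsg.Agent.Lib.H58G2Defs
open scoped MatrixGroups

variable {F : Type*} [Field F]

theorem fixH (g2 : M2 F →ₗ[F] M2 F)
    (hmul : ∀ x y : M2 F × M2 F, ((cdMul x y).1, g2 (cdMul x y).2) = cdMul (x.1, g2 x.2) (y.1, g2 y.2)) :
    ∃ s : M2 F, s.det = 1 ∧ ∀ b, g2 b = s * b := by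
  refine ⟨g2 1, ?_, fun a => ?_⟩
  · have h := hmul (0, 1) (0, 1)
    have h1 := congrArg Prod.fst h
    simp only [cdMul, mul_zero, zero_add, mul_one, Matrix.adjugate_one, Matrix.adjugate_mul] at h1
    have h2 := congrFun (congrFun h1 0) 0
    simpa using h2.symm
  · have h := hmul (a, 0) (0, 1)
    have h1 := congrArg Prod.snd h
    simpa [cdMul] using h1

end Cfsg.Agent.Lib.H58G2FixH
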