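import Mathlib
import Cfsg.Agent.Lib.H58G2Defs

/-! PROJECT 4632 (row S4632, 10u), piece `ThLin`.  Overview: notes/helper58/G2/README.md. -/

set_option autoImplicit false

namespace Cfsg.Agent.Lib.H58G2ThLin

open Matrix Cfsg.Agent.Lib.H58G2Defs
open scoped MatrixGroups

variable {F : Type*} [Field F]

theorem th_add (x y : M2 F × M2 F) : th (x + y) = th x + th y := by
  funext i
  fin_cases i <;> simp [th] <;> ring

theorem th_smul (a : F) (x : M2 F × M2 F) : th (a • x) = a • th x := by
  funext i
  fin_cases i <;> simp [th]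

/-- the inverse of `th` -/
def thInv (v : Fin 8 → F) : M2 F × M2 F :=
  (!![v 0, v 3; v 6, v 7], !![v 1, v 5; - v 2, v 4])

theorem thInv_th (x : M2 F × M2 F) : thInv (th x) = x := by
  apply Prod.ext
  · ext i j
    fin_cases i <;> fin_cases j <;> simp [th, thInv]
  · ext i j
    fin_cases i <;> fin_cases j <;> simp [th, thInv]

theorem th_thInv (v : Fin 8 → F) : th (thInv v) = v := by
  funext i
  fin_cases i <;> simp [th, thInv]

theorem th_injective : Function.Injective (th (F := F)) :=
  Function.LeftInverse.injective thInv_th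

theorem th_surjective : Function.Surjective (th (F := F)) :=
  Function.RightInverse.surjective th_thInv

theorem exists_thL : ∃ e : (M2 F × M2 F) ≃ₗ[F] (Fin 8 → F), ∀ x, e x = th x :=
  ⟨{ toFun := th
     map_add' := th_add
     map_smul' := fun a x => th_smul a x
     invFun := thInv
     left_inv := thInv_th
     right_inv := th_thInv }, fun _ => rfl⟩

theorem eq_of_mulVec_th {g g' : ↥(Cfsg.Lie.G2 F)} (h : ∀ x, mt g *ᵥ th x = mt g' *ᵥ th x) : g = g' := by
  apply Subtype.ext
  apply Units.ext
  apply Matrix.toLin'.injective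
  apply LinearMap.ext
  intro v
  obtain ⟨x, rfl⟩ := th_surjective v
  simpa [Matrix.toLin'_apply] using h x

end Cfsg.Agent.Lib.H58G2ThLin
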