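import Mathlib
import Cfsg.Agent.Lib.H58G2Defs
import Cfsg.Agent.Lib.H58G2ThLin
import Cfsg.Agent.Lib.H58G2ActMul

/-! PROJECT 4632 (row S4632, 10u), piece `Ker`.  Overview: notes/helper58/G2/README.md.
(60 min.)  `phi_eq_one_iff`: `Φ γ = 1` iff `act γ x = x` for all `x` (`eq_of_mulVec_th`, `th_injective`).  With `x = (0, 1)`: `r c⁻¹ = 1`, so `r = c`; with `x = (a, 0)`: `c a = a c` for all `a`, so `c` is scalar
(`Matrix.mem_range_scalar_iff_commute_single'`/take `a = single i j 1`, or compare entries by hand for 2 x 2).  Conversely a scalar pair acts trivially.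
`act_tG`: `(-1 : GL) = -1` as a matrix (`Units.val_neg`).  `orderOf_t`: `tG * tG = 1`, and `Φ tG ≠ 1` since `(1, -1)` is not a pair of equal scalars (`1 ≠ -1`); `orderOf_eq_prime`.
-/

set_option autoImplicit false

namespace Cfsg.Agent.Lib.H58G2Ker

open Matrix Cfsg.Agent.Lib.H58G2Defs
open scoped MatrixGroups
open Cfsg.Agent.Lib.H58G2ThLin
open Cfsg.Agent.Lib.H58G2ActMul

variable {F : Type*} [Field F]

theorem phi_eq_one_iff {Φ : ↥(Gam F) →* ↥(Cfsg.Lie.G2 F)} (hΦ : IsPhi Φ) (γ : ↥(Gam F)) :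
    Φ γ = 1 ↔ IsSc (γ : GL (Fin 2) F × GL (Fin 2) F) := by
  have hcc : ((γ.1.1 : GL (Fin 2) F) : M2 F) * ((γ.1.1⁻¹ : GL (Fin 2) F) : M2 F) = 1 := by
    rw [← Units.val_mul, mul_inv_cancel, Units.val_one]
  have hcc' : ((γ.1.1⁻¹ : GL (Fin 2) F) : M2 F) * ((γ.1.1 : GL (Fin 2) F) : M2 F) = 1 := by
    rw [← Units.val_mul, inv_mul_cancel, Units.val_one]
  constructor
  · intro h
    have hact : ∀ x, act (γ : GL (Fin 2) F × GL (Fin 2) F) x = x := by
      intro x
      apply th_injective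
      rw [← hΦ γ x, h]
      show (1 : Matrix (Fin 8) (Fin 8) F) *ᵥ th x = th x
      rw [Matrix.one_mulVec]
    have h1 := congrArg Prod.snd (hact (0, 1))
    have h2 : ∀ a : M2 F, ((γ.1.1 : GL (Fin 2) F) : M2 F) * a = a * ((γ.1.1 : GL (Fin 2) F) : M2 F) := by
      intro a
      have h3 := congrArg Prod.fst (hact (a, 0))
      simp only [act] at h3
      calc ((γ.1.1 : GL (Fin 2) F) : M2 F) * a
          = ((γ.1.1 : GL (Fin 2) F) : M2 F) * a * (((γ.1.1⁻¹ : GL (Fin 2) F) : M2 F) *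
              ((γ.1.1 : GL (Fin 2) F) : M2 F)) := by rw [hcc', mul_one]
        _ = (((γ.1.1 : GL (Fin 2) F) : M2 F) * a * ((γ.1.1⁻¹ : GL (Fin 2) F) : M2 F)) *
              ((γ.1.1 : GL (Fin 2) F) : M2 F) := by rw [mul_assoc, mul_assoc, mul_assoc]
        _ = a * ((γ.1.1 : GL (Fin 2) F) : M2 F) := by rw [h3]
    simp only [act, mul_one] at h1
    have hrc : ((γ.1.2 : GL (Fin 2) F) : M2 F) = ((γ.1.1 : GL (Fin 2) F) : M2 F) := by
      calc ((γ.1.2 : GL (Fin 2) F) : M2 F)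
          = ((γ.1.2 : GL (Fin 2) F) : M2 F) * (((γ.1.1⁻¹ : GL (Fin 2) F) : M2 F) *
              ((γ.1.1 : GL (Fin 2) F) : M2 F)) := by rw [hcc', mul_one]
        _ = ((γ.1.1 : GL (Fin 2) F) : M2 F) := by rw [← mul_assoc, h1, one_mul]
    have hsc : ((γ.1.1 : GL (Fin 2) F) : M2 F) = (((γ.1.1 : GL (Fin 2) F) : M2 F) 0 0) • (1 : M2 F) := by
      generalize ((γ.1.1 : GL (Fin 2) F) : M2 F) = c at h2
      have ha := h2 !![0, 1; 0, 0]
      have hb := h2 !![0, 0; 1, 0]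
      have ha00 := congrFun (congrFun ha 0) 0
      have ha01 := congrFun (congrFun ha 0) 1
      have hb11 := congrFun (congrFun hb 1) 1
      simp [Matrix.mul_apply, Fin.sum_univ_two] at ha00 ha01 hb11
      ext i j
      fin_cases i <;> fin_cases j
      · simp
      · simp [← hb11]
      · simp [← ha00]
      · simp [ha01]
    exact ⟨_, hsc, hrc.trans hsc⟩
  · rintro ⟨a, h1, h2⟩
    apply eq_of_mulVec_th
    intro x
    rw [hΦ γ x]
    have hact : act (γ : GL (Fin 2) F × GL (Fin 2) F) x = x := by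
      have key : ∀ y : M2 F, (a • (1 : M2 F)) * y * ((γ.1.1⁻¹ : GL (Fin 2) F) : M2 F) = y := by
        intro y
        calc (a • (1 : M2 F)) * y * ((γ.1.1⁻¹ : GL (Fin 2) F) : M2 F)
            = y * ((a • (1 : M2 F)) * ((γ.1.1⁻¹ : GL (Fin 2) F) : M2 F)) := by
              simp [mul_assoc]
          _ = y := by rw [← h1, hcc, mul_one]
      apply Prod.ext
      · simp only [act]; rw [h1]; exact key _
      · simp only [act]; rw [h2]; exact key _
    rw [hact]
    show th x = (1 : Matrix (Fin 8) (Fin 8) F) *ᵥ th x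
    rw [Matrix.one_mulVec]

theorem act_tG (x : M2 F × M2 F) : act ((tG : ↥(Gam F)) : GL (Fin 2) F × GL (Fin 2) F) x = (x.1, - x.2) := by
  simp [act, tG, mkG]

theorem t_central (γ : ↥(Gam F)) : γ * tG = tG * γ := by
  apply Subtype.ext
  apply Prod.ext <;> simp [tG, mkG]

theorem orderOf_t (h2 : (2 : F) ≠ 0) {Φ : ↥(Gam F) →* ↥(Cfsg.Lie.G2 F)} (hΦ : IsPhi Φ) :
    orderOf (Φ tG) = 2 := by
  haveI : Fact (Nat.Prime 2) := ⟨Nat.prime_two⟩
  apply orderOf_eq_prime
  · rw [← map_pow]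
    have : (tG : ↥(Gam F)) ^ 2 = 1 := by
      apply Subtype.ext
      apply Prod.ext <;> simp [tG, mkG]
    rw [this, map_one]
  · intro h
    obtain ⟨a, h1, h2'⟩ := (phi_eq_one_iff hΦ tG).mp h
    have e1 : (1 : M2 F) = a • (1 : M2 F) := by simpa [tG, mkG] using h1
    have e2 : (-1 : M2 F) = a • (1 : M2 F) := by simpa [tG, mkG] using h2'
    have e3 : (1 : M2 F) = -1 := e1.trans e2.symm
    have e4 := congrFun (congrFun e3 0) 0
    simp at e4
    apply h2
    linear_combination e4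

end Cfsg.Agent.Lib.H58G2Ker
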