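import Mathlib
import Cfsg.Agent.Lib.H58G2Defs

/-! PROJECT 4632 (row S4632, 10u), piece `Skolem`.  Overview: notes/helper58/G2/README.md.
(60 min, PURE Mathlib.)  Skolem-Noether for `M₂(F)` (works for any `n`).  First look in Mathlib (`AlgEquiv.eq_linearEquivConjAlgEquiv`, `Module.End` "all automorphisms are inner", file `Mathlib/LinearAlgebra/GeneralLinearGroup/AlgEquiv.lean` or similar).
By hand: `f 1` is an idempotent and `f` is injective, dimension count: `f` is bijective, so `f 1 = 1`.  For a column `u` let `M u = Matrix.of (fun i j => if j = 0 then u i else 0)` (`X * M u = M (X *ᵥ u)`).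
`f (M e₀) ≠ 0`: choose `v₀` with `f (M e₀) *ᵥ v₀ ≠ 0`.  `C u := f (M u) *ᵥ v₀` is linear, `f X *ᵥ C u = C (X *ᵥ u)`, `C ≠ 0`; `ker C` is invariant under all `X`, so `ker C = 0`, `C` is invertible; its matrix `c` satisfies `f X * c = c * X`.
-/

set_option autoImplicit false

namespace Cfsg.Agent.Lib.H58G2Skolem

open Matrix Cfsg.Agent.Lib.H58G2Defs
open scoped MatrixGroups

variable {F : Type*} [Field F]

theorem skolem (f : M2 F →ₗ[F] M2 F) (hinj : Function.Injective f) (hmul : ∀ a b, f (a * b) = f a * f b) :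
    ∃ c : GL (Fin 2) F, ∀ a, f a = (c : M2 F) * a * ((c⁻¹ : GL (Fin 2) F) : M2 F) := by
  have hsurj : Function.Surjective f := LinearMap.injective_iff_surjective.mp hinj
  have h1 : f 1 = 1 := by
    obtain ⟨a, ha⟩ := hsurj 1
    have : f 1 * f a = f a := by rw [← hmul, one_mul]
    rwa [ha, mul_one] at this
  let fA : M2 F ≃ₐ[F] M2 F := AlgEquiv.ofBijective (AlgHom.ofLinearMap f h1 hmul) ⟨hinj, hsurj⟩
  have hfA : ∀ a, fA a = f a := fun a => rfl
  obtain ⟨T, hT⟩ := AlgEquiv.eq_linearEquivConjAlgEquiv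
    ((Matrix.toLinAlgEquiv' (R := F) (n := Fin 2)).symm.trans (fA.trans Matrix.toLinAlgEquiv'))
  have e1 : LinearMap.toMatrix' (T : (Fin 2 → F) →ₗ[F] (Fin 2 → F)) *
      LinearMap.toMatrix' (T.symm : (Fin 2 → F) →ₗ[F] (Fin 2 → F)) = 1 := by
    rw [← LinearMap.toMatrix'_comp]
    simp
  have e2 : LinearMap.toMatrix' (T.symm : (Fin 2 → F) →ₗ[F] (Fin 2 → F)) *
      LinearMap.toMatrix' (T : (Fin 2 → F) →ₗ[F] (Fin 2 → F)) = 1 := by
    rw [← LinearMap.toMatrix'_comp]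
    simp
  refine ⟨⟨LinearMap.toMatrix' (T : (Fin 2 → F) →ₗ[F] (Fin 2 → F)),
    LinearMap.toMatrix' (T.symm : (Fin 2 → F) →ₗ[F] (Fin 2 → F)), e1, e2⟩, fun a => ?_⟩
  have h2 := congrArg (fun g => g (Matrix.toLin' a)) hT
  simp only [AlgEquiv.trans_apply, LinearEquiv.conjAlgEquiv_apply] at h2
  have h3 : (Matrix.toLinAlgEquiv' (R := F) (n := Fin 2)).symm (Matrix.toLin' a) = a := by
    have : Matrix.toLin' a = Matrix.toLinAlgEquiv' (R := F) (n := Fin 2) a := rfl
    rw [this, AlgEquiv.symm_apply_apply]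
  rw [h3, hfA] at h2
  have h4 : Matrix.toLin' (f a) = (T : (Fin 2 → F) →ₗ[F] (Fin 2 → F)) ∘ₗ Matrix.toLin' a ∘ₗ
      (T.symm : (Fin 2 → F) →ₗ[F] (Fin 2 → F)) := h2
  have h5 := congrArg LinearMap.toMatrix' h4
  rw [LinearMap.toMatrix'_toLin', LinearMap.toMatrix'_comp, LinearMap.toMatrix'_comp,
    LinearMap.toMatrix'_toLin', ← mul_assoc] at h5
  exact h5

end Cfsg.Agent.Lib.H58G2Skolem
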