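import Mathlib
import Cfsg.Agent.Lib.H58G2Defs
import Cfsg.Agent.Lib.H58G2ThLin
import Cfsg.Agent.Lib.H58G2Ker

/-! PROJECT 4632 (row S4632, 10u), piece `Split`.  Overview: notes/helper58/G2/README.md.
(60 min.)  `t = Φ tG` acts by `th (a, b) ↦ th (a, -b)` (`hΦ`, `act_tG`).  Let `e` be the linear equivalence of `exists_thL` and `L = e.symm ∘ (mulVec by g) ∘ e : M2 × M2 →ₗ M2 × M2`.
`g t = t g` gives `L (a, -b) = (p, -s)` if `L (a, b) = (p, s)`.  So `L (a, 0) = (p, s)` with `s = -s`, `s = 0` (`2 ≠ 0`), and `L (0, b) = (p, s)` with `p = -p`, `p = 0`.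
`g1 = fst ∘ L ∘ inl`, `g2 = snd ∘ L ∘ inr`, `L (a, b) = L (a, 0) + L (0, b)`.
-/

set_option autoImplicit false

namespace Cfsg.Agent.Lib.H58G2Split

open Matrix Cfsg.Agent.Lib.H58G2Defs
open scoped MatrixGroups
open Cfsg.Agent.Lib.H58G2ThLin
open Cfsg.Agent.Lib.H58G2Ker

variable {F : Type*} [Field F]

theorem eq_zero_of_eq_neg (h2 : (2 : F) ≠ 0) (s : M2 F) (h : s = -s) : s = 0 := by
  ext i j
  have h1 := congrFun (congrFun h i) j
  simp only [Matrix.neg_apply] at h1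
  have h3 : (2 : F) * s i j = 0 := by linear_combination h1
  simpa [h2] using h3

theorem split (h2 : (2 : F) ≠ 0) {Φ : ↥(Gam F) →* ↥(Cfsg.Lie.G2 F)} (hΦ : IsPhi Φ)
    (g : ↥(Cfsg.Lie.G2 F)) (hg : g * Φ tG = Φ tG * g) :
    ∃ g1 g2 : M2 F →ₗ[F] M2 F, ∀ x : M2 F × M2 F, mt g *ᵥ th x = th (g1 x.1, g2 x.2) := by
  obtain ⟨e, he⟩ := exists_thL (F := F)
  obtain ⟨L, hL⟩ : ∃ L : (M2 F × M2 F) →ₗ[F] (M2 F × M2 F), ∀ x, th (L x) = H58G2Defs.mt g *ᵥ th x := by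
    refine ⟨(e.symm : (Fin 8 → F) →ₗ[F] (M2 F × M2 F)) ∘ₗ Matrix.mulVecLin (H58G2Defs.mt g) ∘ₗ
      (e : (M2 F × M2 F) →ₗ[F] (Fin 8 → F)), fun x => ?_⟩
    simp only [LinearMap.comp_apply, LinearEquiv.coe_coe, Matrix.mulVecLin_apply, he]
    rw [← he, LinearEquiv.apply_symm_apply]
  have ht : ∀ x : M2 F × M2 F, H58G2Defs.mt (Φ tG) *ᵥ th x = th (x.1, - x.2) := by
    intro x
    rw [hΦ tG x, act_tG]
  have hcomm : H58G2Defs.mt g * H58G2Defs.mt (Φ tG) = H58G2Defs.mt (Φ tG) * H58G2Defs.mt g := by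
    have := congrArg (fun y : ↥(Cfsg.Lie.G2 F) => H58G2Defs.mt y) hg
    simpa [H58G2Defs.mt] using this
  have key : ∀ x : M2 F × M2 F, L (x.1, - x.2) = ((L x).1, - (L x).2) := by
    intro x
    apply th_injective
    rw [hL, ← ht x, Matrix.mulVec_mulVec, hcomm, ← Matrix.mulVec_mulVec, ← hL x, ht]
  have h10 : ∀ a : M2 F, (L (a, 0)).2 = 0 := by
    intro a
    apply eq_zero_of_eq_neg h2
    have := congrArg Prod.snd (key (a, 0))
    simpa using this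
  have h01 : ∀ b : M2 F, (L (0, b)).1 = 0 := by
    intro b
    apply eq_zero_of_eq_neg h2
    have h3 := congrArg Prod.fst (key (0, b))
    have h4 : L ((0 : M2 F), -b) = - L (0, b) := by
      rw [← map_neg]
      congr 1
      simp
    simp only [h4] at h3
    have h5 : -(L (0, b)).1 = (L (0, b)).1 := by simpa using h3
    exact h5.symm
  refine ⟨LinearMap.fst F _ _ ∘ₗ L ∘ₗ LinearMap.inl F _ _,
    LinearMap.snd F _ _ ∘ₗ L ∘ₗ LinearMap.inr F _ _, fun x => ?_⟩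
  rw [← hL]
  congr 1
  have hx : x = (x.1, 0) + (0, x.2) := by simp
  conv_lhs => rw [hx, map_add]
  apply Prod.ext
  · simp [h01]
  · simp [h10]

end Cfsg.Agent.Lib.H58G2Split
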