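import Mathlib
import Cfsg.Agent.Lib.H58G2Defs

/-! PROJECT 4632 (row S4632, 10u), piece `ThMul`.  Overview: notes/helper58/G2/README.md.
(30 min, PURE computation.)  Unfold `Cfsg.Lie.zornMul, zA, zB, dot3, cross3, th, cdMul`, `Matrix.adjugate_fin_two`, `Matrix.mul_apply`, `Fin.sum_univ_two`;
`funext i; fin_cases i` and `ring` on each of the 8 coordinates (checked numerically: the identity is true).
-/

set_option autoImplicit false

namespace Cfsg.Agent.Lib.H58G2ThMul

open Matrix Cfsg.Agent.Lib.H58G2Defs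
open scoped MatrixGroups

variable {F : Type*} [Field F]

theorem th_mul (x y : M2 F × M2 F) : Cfsg.Lie.zornMul (th x) (th y) = th (cdMul x y) := by
  obtain ⟨a, b⟩ := x
  obtain ⟨c, d⟩ := y
  funext i
  fin_cases i <;>
    simp [Cfsg.Lie.zornMul, Cfsg.Lie.zA, Cfsg.Lie.zB, Cfsg.Lie.dot3, Cfsg.Lie.cross3, th, cdMul,
      Matrix.adjugate_fin_two, Matrix.mul_apply, Fin.sum_univ_two, Matrix.vecMul, dotProduct] <;> ring

end Cfsg.Agent.Lib.H58G2ThMul
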