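import Mathlib
import Cfsg.Agent.Lib.H58G2Defs
import Cfsg.Agent.Lib.H58G2ThMul
import Cfsg.Agent.Lib.H58G2ThLin
import Cfsg.Agent.Lib.H58G2ActMul
import Cfsg.Agent.Lib.H58G2Ker
import Cfsg.Agent.Lib.H58G2Split
import Cfsg.Agent.Lib.H58G2Skolem
import Cfsg.Agent.Lib.H58G2FixH

/-! PROJECT 4632 (row S4632, 10u), piece `Cent`.  Overview: notes/helper58/G2/README.md.
(75 min, assembly.)  `split` gives `g1, g2`.  As `g ∈ G2 F` (`g.2 : ∀ x y, g *ᵥ zornMul x y = zornMul (g *ᵥ x) (g *ᵥ y)`, the coercion `Units.coeHom` is `mt g` by `rfl`), `th_mul` and `th_injective` give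
`(g1 (cdMul x y).1, g2 (cdMul x y).2) = cdMul (g1 x.1, g2 x.2) (g1 y.1, g2 y.2)`.  With `x = (a,0)`, `y = (b,0)`: `g1 (a b) = g1 a * g1 b`.  `g1` is injective (`mt g` is invertible, `th_injective`).
`skolem`: `g1 a = c a c⁻¹`.  Let `γ₀ = mkG c c rfl` and `g' = (Φ γ₀)⁻¹ * g`: it acts by `th (a, b) ↦ th (a, g2' b)`, `g2' b = c⁻¹ * g2 b * c` (use `hΦ γ₀⁻¹`).  `fixH` for `g2'` (same computation as above for `g'`): `g2' b = s b`, `det s = 1`.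
`σ = mkG 1 s' _` (`s'` the unit with matrix `s`, `Matrix.GeneralLinearGroup.mkOfDetNeZero`): `Φ σ = g'` by `eq_of_mulVec_th`.  So `g = Φ (γ₀ * σ)`.
-/

set_option autoImplicit false

namespace Cfsg.Agent.Lib.H58G2Cent

open Matrix Cfsg.Agent.Lib.H58G2Defs
open scoped MatrixGroups
open Cfsg.Agent.Lib.H58G2ThMul
open Cfsg.Agent.Lib.H58G2ThLin
open Cfsg.Agent.Lib.H58G2ActMul
open Cfsg.Agent.Lib.H58G2Ker
open Cfsg.Agent.Lib.H58G2Split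
open Cfsg.Agent.Lib.H58G2Skolem
open Cfsg.Agent.Lib.H58G2FixH

variable {F : Type*} [Field F]

theorem mt_mul (g h : ↥(Cfsg.Lie.G2 F)) : mt (g * h) = mt g * mt h := rfl

theorem mt_one : mt (1 : ↥(Cfsg.Lie.G2 F)) = 1 := rfl

theorem mt_inv_mulVec (g : ↥(Cfsg.Lie.G2 F)) (v : Fin 8 → F) : mt g⁻¹ *ᵥ (mt g *ᵥ v) = v := by
  rw [Matrix.mulVec_mulVec, ← mt_mul, inv_mul_cancel, mt_one, Matrix.one_mulVec]

theorem mul_of_split (g : ↥(Cfsg.Lie.G2 F)) (g1 g2 : M2 F → M2 F)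
    (hs : ∀ x : M2 F × M2 F, mt g *ᵥ th x = th (g1 x.1, g2 x.2)) (x y : M2 F × M2 F) :
    (g1 (cdMul x y).1, g2 (cdMul x y).2) = cdMul (g1 x.1, g2 x.2) (g1 y.1, g2 y.2) := by
  have hg2 : ∀ x y, mt g *ᵥ Cfsg.Lie.zornMul x y = Cfsg.Lie.zornMul (mt g *ᵥ x) (mt g *ᵥ y) := g.2
  apply th_injective
  rw [← hs (cdMul x y), ← th_mul, hg2, hs x, hs y, th_mul]

theorem cent_le_range (h2 : (2 : F) ≠ 0) {Φ : ↥(Gam F) →* ↥(Cfsg.Lie.G2 F)} (hΦ : IsPhi Φ)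
    (g : ↥(Cfsg.Lie.G2 F)) (hg : g * Φ tG = Φ tG * g) : g ∈ Φ.range := by
  obtain ⟨g1, g2, hs⟩ := split h2 hΦ g hg
  have hmul := mul_of_split g g1 g2 hs
  have h1mul : ∀ a b, g1 (a * b) = g1 a * g1 b := by
    intro a b
    have := congrArg Prod.fst (hmul (a, 0) (b, 0))
    simpa [cdMul] using this
  have h1inj : Function.Injective g1 := by
    intro a a' haa
    have e1 : mt g *ᵥ th (a, 0) = mt g *ᵥ th (a', 0) := by
      rw [hs, hs]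
      simp only [haa]
    have e2 := congrArg (fun v => mt g⁻¹ *ᵥ v) e1
    simp only [mt_inv_mulVec] at e2
    exact congrArg Prod.fst (th_injective e2)
  obtain ⟨c, hc⟩ := skolem g1 h1inj h1mul
  obtain ⟨γ₀, hγ₀⟩ : ∃ γ₀ : ↥(Gam F), γ₀ = mkG c c rfl := ⟨_, rfl⟩
  obtain ⟨g2', hg2'⟩ : ∃ g2' : M2 F →ₗ[F] M2 F,
      ∀ b, g2' b = ((c⁻¹ : GL (Fin 2) F) : M2 F) * g2 b * (c : M2 F) :=
    ⟨(LinearMap.mulRight F (c : M2 F)) ∘ₗ (LinearMap.mulLeft F ((c⁻¹ : GL (Fin 2) F) : M2 F)) ∘ₗ g2,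
      fun b => by simp⟩
  have hcc : ((c⁻¹ : GL (Fin 2) F) : M2 F) * (c : M2 F) = 1 := by
    rw [← Units.val_mul, inv_mul_cancel, Units.val_one]
  have hs' : ∀ x : M2 F × M2 F, mt ((Φ γ₀)⁻¹ * g) *ᵥ th x = th (x.1, g2' x.2) := by
    intro x
    rw [mt_mul, ← Matrix.mulVec_mulVec, hs, ← map_inv, hΦ, hγ₀]
    congr 1
    change (((c⁻¹ : GL (Fin 2) F) : M2 F) * g1 x.1 * (((c⁻¹)⁻¹ : GL (Fin 2) F) : M2 F),
      ((c⁻¹ : GL (Fin 2) F) : M2 F) * g2 x.2 * (((c⁻¹)⁻¹ : GL (Fin 2) F) : M2 F)) = _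
    rw [inv_inv, hc, hg2']
    congr 1
    calc ((c⁻¹ : GL (Fin 2) F) : M2 F) * ((c : M2 F) * x.1 * ((c⁻¹ : GL (Fin 2) F) : M2 F)) * (c : M2 F)
        = (((c⁻¹ : GL (Fin 2) F) : M2 F) * (c : M2 F)) * x.1 *
            (((c⁻¹ : GL (Fin 2) F) : M2 F) * (c : M2 F)) := by simp only [Matrix.mul_assoc]
      _ = x.1 := by rw [hcc, Matrix.one_mul, Matrix.mul_one]
  have hmul' := mul_of_split ((Φ γ₀)⁻¹ * g) id g2' hs'
  obtain ⟨s, hsdet, hsb⟩ := fixH g2' hmul'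
  obtain ⟨s', hs'v⟩ : ∃ s' : GL (Fin 2) F, (s' : M2 F) = s :=
    ⟨Matrix.GeneralLinearGroup.mkOfDetNeZero s (by rw [hsdet]; exact one_ne_zero), rfl⟩
  have hdet : Matrix.GeneralLinearGroup.det (1 : GL (Fin 2) F) = Matrix.GeneralLinearGroup.det s' := by
    ext
    rw [map_one, Matrix.GeneralLinearGroup.val_det_apply, hs'v, hsdet, Units.val_one]
  have hσ : Φ (mkG 1 s' hdet) = (Φ γ₀)⁻¹ * g := by
    apply eq_of_mulVec_th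
    intro x
    rw [hs', hΦ, hsb]
    congr 1
    change (((1 : GL (Fin 2) F) : M2 F) * x.1 * (((1 : GL (Fin 2) F)⁻¹ : GL (Fin 2) F) : M2 F),
      (s' : M2 F) * x.2 * (((1 : GL (Fin 2) F)⁻¹ : GL (Fin 2) F) : M2 F)) = _
    rw [inv_one, Units.val_one, Matrix.one_mul, Matrix.mul_one, Matrix.mul_one, hs'v]
  refine ⟨γ₀ * mkG 1 s' hdet, ?_⟩
  rw [map_mul, hσ, mul_inv_cancel_left]

end Cfsg.Agent.Lib.H58G2Cent
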