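import Mathlib
import Cfsg.Agent.Lib.H58G2Defs
import Cfsg.Agent.Lib.H58G2Forms

/-! PROJECT 4632 (row S4632, 10u), piece `UGroup`.  Overview: notes/helper58/G2/README.md.
(60 min.)  `J⁴ = 1`, `K⁴ = 1` (`J² = K² = -1`: `rot_mul_rot`, `ref_mul_ref`), `K J K⁻¹ = J⁻¹`.  `zpowers` of an element `x` with `x ^ 4 = 1` is a 2-group (`IsPGroup.of_card`/`isPGroup_of ... orderOf ∣ 2 ^ 2`, or `IsPGroup.iff_orderOf`).
`zpowers (iL K)` normalises `zpowers (iL J)`: `IsPGroup.to_sup_of_normal_left'` (or `_right'`).  The left block commutes elementwise with the right block (`(s,1) (1,s') = (1,s') (s,1)`), so each normalises the other: again `to_sup_of_normal_...'`.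
`tG = (iR J)²`.
-/

set_option autoImplicit false

namespace Cfsg.Agent.Lib.H58G2UGroup

open Matrix Cfsg.Agent.Lib.H58G2Defs
open scoped MatrixGroups
open Cfsg.Agent.Lib.H58G2Forms

variable {F : Type*} [Field F]

theorem isP_zpowers {G : Type*} [Group G] (x : G) (hx : x ^ 4 = 1) :
    IsPGroup 2 ↥(Subgroup.zpowers x) := by
  rintro ⟨g, hg⟩
  obtain ⟨n, rfl⟩ := Subgroup.mem_zpowers_iff.1 hg
  refine ⟨2, Subtype.ext ?_⟩
  show (x ^ n) ^ (2 ^ 2) = 1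
  rw [← zpow_natCast, ← _root_.zpow_mul, mul_comm, _root_.zpow_mul, zpow_natCast]
  norm_num [hx]

theorem mem_normalizer_zpowers {G : Type*} [Group G] (x y : G) (h : y * x * y⁻¹ = x⁻¹) :
    y ∈ Subgroup.normalizer ((Subgroup.zpowers x : Subgroup G) : Set G) := by
  have h' : y⁻¹ * x * y = x⁻¹ := by
    have : x = y⁻¹ * x⁻¹ * y := by rw [← h]; group
    have h3 : x⁻¹ = (y⁻¹ * x⁻¹ * y)⁻¹ := congrArg _ this
    rw [h3]; group
  rw [Subgroup.mem_normalizer_iff]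
  intro g
  constructor
  · intro hg
    obtain ⟨n, rfl⟩ := Subgroup.mem_zpowers_iff.1 hg
    rw [← conj_zpow, h]
    exact Subgroup.zpow_mem _ (Subgroup.inv_mem _ (Subgroup.mem_zpowers x)) n
  · intro hg
    obtain ⟨n, hn⟩ := Subgroup.mem_zpowers_iff.1 hg
    have : g = (y⁻¹ * x * y) ^ n := by
      have h4 : (y⁻¹ * x * y) ^ n = y⁻¹ * x ^ n * y := by
        have := conj_zpow (a := y⁻¹) (b := x) (i := n)
        rw [inv_inv] at this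
        exact this
      rw [h4, hn]; group
    rw [this, h']
    exact Subgroup.zpow_mem _ (Subgroup.inv_mem _ (Subgroup.mem_zpowers x)) n

theorem isP_q8 {G : Type*} [Group G] (x y : G) (hx : x ^ 4 = 1) (hy : y ^ 4 = 1)
    (h : y * x * y⁻¹ = x⁻¹) : IsPGroup 2 ↥(Subgroup.zpowers x ⊔ Subgroup.zpowers y) :=
  IsPGroup.to_sup_of_normal_left' (isP_zpowers x hx) (isP_zpowers y hy)
    (Subgroup.zpowers_le.2 (mem_normalizer_zpowers x y h))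

theorem J_sq : (Jg F) ^ 2 = -1 := by
  apply Units.ext
  rw [pow_two, Units.val_mul, Units.val_neg, Units.val_one]
  show rot (0 : F) 1 * rot 0 1 = -1
  rw [rot_mul_rot]
  ext i j
  fin_cases i <;> fin_cases j <;> simp [rot]

theorem K_sq (x₀ y₀ : F) (h : x₀ ^ 2 + y₀ ^ 2 = -1) : (Kg x₀ y₀ h) ^ 2 = -1 := by
  apply Units.ext
  rw [pow_two, Units.val_mul, Units.val_neg, Units.val_one]
  show ref x₀ y₀ * ref x₀ y₀ = -1
  rw [ref_mul_ref]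
  have h1 : x₀ * x₀ + y₀ * y₀ = -1 := by rw [← h]; ring
  have h2 : x₀ * y₀ - y₀ * x₀ = 0 := by ring
  rw [h1, h2]
  ext i j
  fin_cases i <;> fin_cases j <;> simp [rot]

theorem pow4_of_sq (s : GL (Fin 2) F) (h : s ^ 2 = -1) : s ^ 4 = 1 := by
  have : s ^ 4 = (s ^ 2) ^ 2 := by rw [← pow_mul]
  rw [this, h]
  simp

theorem JKJ (x₀ y₀ : F) (h : x₀ ^ 2 + y₀ ^ 2 = -1) : Jg F * Kg x₀ y₀ h * Jg F = Kg x₀ y₀ h := by
  apply Units.ext
  rw [Units.val_mul, Units.val_mul]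
  show rot (0 : F) 1 * ref x₀ y₀ * rot 0 1 = ref x₀ y₀
  rw [rot_mul_ref, ref_mul_rot]
  congr 1 <;> ring

theorem KJK (x₀ y₀ : F) (h : x₀ ^ 2 + y₀ ^ 2 = -1) :
    Kg x₀ y₀ h * Jg F * (Kg x₀ y₀ h)⁻¹ = (Jg F)⁻¹ := by
  have h1 := JKJ x₀ y₀ h
  rw [mul_inv_eq_iff_eq_mul, eq_inv_mul_iff_mul_eq, ← mul_assoc]
  exact h1

theorem iL_pow4 (s : GL (Fin 2) F) (h : Matrix.GeneralLinearGroup.det s = 1) (h4 : s ^ 4 = 1) :
    (iL s h) ^ 4 = 1 :=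
  Subtype.ext (Prod.ext (show s ^ 4 = 1 from h4) (show (1 : GL (Fin 2) F) ^ 4 = 1 from one_pow 4))

theorem iR_pow4 (s : GL (Fin 2) F) (h : Matrix.GeneralLinearGroup.det s = 1) (h4 : s ^ 4 = 1) :
    (iR s h) ^ 4 = 1 :=
  Subtype.ext (Prod.ext (show (1 : GL (Fin 2) F) ^ 4 = 1 from one_pow 4) (show s ^ 4 = 1 from h4))

theorem iL_conj (s u : GL (Fin 2) F) (h : Matrix.GeneralLinearGroup.det s = 1)
    (h' : Matrix.GeneralLinearGroup.det u = 1) (hc : u * s * u⁻¹ = s⁻¹) :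
    iL u h' * iL s h * (iL u h')⁻¹ = (iL s h)⁻¹ :=
  Subtype.ext (Prod.ext (show u * s * u⁻¹ = s⁻¹ from hc)
    (show (1 : GL (Fin 2) F) * 1 * 1⁻¹ = 1⁻¹ by simp))

theorem iR_conj (s u : GL (Fin 2) F) (h : Matrix.GeneralLinearGroup.det s = 1)
    (h' : Matrix.GeneralLinearGroup.det u = 1) (hc : u * s * u⁻¹ = s⁻¹) :
    iR u h' * iR s h * (iR u h')⁻¹ = (iR s h)⁻¹ :=
  Subtype.ext (Prod.ext (show (1 : GL (Fin 2) F) * 1 * 1⁻¹ = 1⁻¹ by simp)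
    (show u * s * u⁻¹ = s⁻¹ from hc))

theorem iL_iR_comm (s u : GL (Fin 2) F) (h : Matrix.GeneralLinearGroup.det s = 1)
    (h' : Matrix.GeneralLinearGroup.det u = 1) : iL s h * iR u h' = iR u h' * iL s h :=
  Subtype.ext (Prod.ext (show s * 1 = 1 * s by simp) (show 1 * u = u * 1 by simp))

theorem isPGroup_UU (x₀ y₀ : F) (h : x₀ ^ 2 + y₀ ^ 2 = -1) : IsPGroup 2 ↥(UU x₀ y₀ h) := by
  have hJ4 := pow4_of_sq _ (J_sq (F := F))
  have hK4 := pow4_of_sq _ (K_sq x₀ y₀ h)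
  have hL := isP_q8 _ _ (iL_pow4 _ det_Jg hJ4) (iL_pow4 _ (det_Kg x₀ y₀ h) hK4)
    (iL_conj _ _ det_Jg (det_Kg x₀ y₀ h) (KJK x₀ y₀ h))
  have hR := isP_q8 _ _ (iR_pow4 _ det_Jg hJ4) (iR_pow4 _ (det_Kg x₀ y₀ h) hK4)
    (iR_conj _ _ det_Jg (det_Kg x₀ y₀ h) (KJK x₀ y₀ h))
  refine IsPGroup.to_sup_of_normal_left' hL hR ?_
  refine le_trans ?_ (Subgroup.centralizer_le_normalizer _)
  have key : ∀ (u : GL (Fin 2) F) (hu : Matrix.GeneralLinearGroup.det u = 1),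
      iR u hu ∈ Subgroup.centralizer
        ((Subgroup.zpowers (iL (Jg F) det_Jg) ⊔
          Subgroup.zpowers (iL (Kg x₀ y₀ h) (det_Kg x₀ y₀ h)) : Subgroup ↥(Gam F)) : Set ↥(Gam F)) := by
    intro u hu
    rw [Subgroup.mem_centralizer_iff]
    have : Subgroup.zpowers (iL (Jg F) det_Jg) ⊔
        Subgroup.zpowers (iL (Kg x₀ y₀ h) (det_Kg x₀ y₀ h)) ≤ Subgroup.centralizer {iR u hu} := by
      refine sup_le (Subgroup.zpowers_le.2 ?_) (Subgroup.zpowers_le.2 ?_)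
      · rw [Subgroup.mem_centralizer_singleton_iff]
        exact iL_iR_comm _ _ _ _
      · rw [Subgroup.mem_centralizer_singleton_iff]
        exact iL_iR_comm _ _ _ _
    intro g hg
    have := this hg
    rw [Subgroup.mem_centralizer_singleton_iff] at this
    exact this
  exact sup_le (Subgroup.zpowers_le.2 (key _ _)) (Subgroup.zpowers_le.2 (key _ _))

theorem gens_mem_UU (x₀ y₀ : F) (h : x₀ ^ 2 + y₀ ^ 2 = -1) :
    iL (Jg F) det_Jg ∈ UU x₀ y₀ h ∧ iL (Kg x₀ y₀ h) (det_Kg x₀ y₀ h) ∈ UU x₀ y₀ h ∧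
      iR (Jg F) det_Jg ∈ UU x₀ y₀ h ∧ iR (Kg x₀ y₀ h) (det_Kg x₀ y₀ h) ∈ UU x₀ y₀ h :=
  ⟨(le_sup_left.trans le_sup_left : _ ≤ UU x₀ y₀ h) (Subgroup.mem_zpowers _),
    (le_sup_right.trans le_sup_left : _ ≤ UU x₀ y₀ h) (Subgroup.mem_zpowers _),
    (le_sup_left.trans le_sup_right : _ ≤ UU x₀ y₀ h) (Subgroup.mem_zpowers _),
    (le_sup_right.trans le_sup_right : _ ≤ UU x₀ y₀ h) (Subgroup.mem_zpowers _)⟩

theorem tG_mem_UU (x₀ y₀ : F) (h : x₀ ^ 2 + y₀ ^ 2 = -1) : (tG : ↥(Gam F)) ∈ UU x₀ y₀ h := by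
  have h1 : (tG : ↥(Gam F)) = (iR (Jg F) det_Jg) ^ 2 :=
    Subtype.ext (Prod.ext (show (1 : GL (Fin 2) F) = 1 ^ 2 from (one_pow 2).symm)
      (show (-1 : GL (Fin 2) F) = (Jg F) ^ 2 from J_sq.symm))
  rw [h1]
  exact Subgroup.pow_mem _ (gens_mem_UU x₀ y₀ h).2.2.1 2

end Cfsg.Agent.Lib.H58G2UGroup
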