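import Mathlib
import Cfsg.Agent.Lib.H58G2Defs
import Cfsg.Agent.Lib.H58G2Ker
import Cfsg.Agent.Lib.H58G2Cent
import Cfsg.Agent.Lib.H58G2UGroup
import Cfsg.Agent.Lib.H58G2Forms

/-! PROJECT 4632 (row S4632, 10u), piece `CentU`.  Overview: notes/helper58/G2/README.md.
(75 min.)  `z` commutes with `Φ tG` (`tG_mem_UU`), so `z = Φ γ`, `γ = (c, r)` (`cent_le_range`).  For `u ∈ UU`: `Φ (γ u γ⁻¹ u⁻¹) = 1`, so `γ u γ⁻¹ u⁻¹` is a pair of equal scalars (`phi_eq_one_iff`).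
`u = iL J = (J, 1)`: the pair is `(c J c⁻¹ J⁻¹, 1)`, so the scalar is `1` and `c J = J c`; the same for `K`, and for `r` with `iR`.  A matrix commuting with `J` is `rot x y` (`mem_ET_iff`); `rot x y * ref x₀ y₀ = ref x₀ y₀ * rot x y` forces `y = 0`
(`rot_mul_ref`, `ref_mul_rot`: `2 y y₀ = 0 = 2 y x₀`, and `(x₀, y₀) ≠ 0`).  So `c = a • 1`, `r = b • 1`, `a² = b²` (determinants), `b = a` or `b = -a`: `γ` or `γ * tG` is a pair of equal scalars: `Φ γ = 1` or `Φ γ = Φ tG` (`tG * tG = 1`).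
-/

set_option autoImplicit false

namespace Cfsg.Agent.Lib.H58G2CentU

open Matrix Cfsg.Agent.Lib.H58G2Defs
open scoped MatrixGroups
open Cfsg.Agent.Lib.H58G2Ker
open Cfsg.Agent.Lib.H58G2Cent
open Cfsg.Agent.Lib.H58G2UGroup
open Cfsg.Agent.Lib.H58G2Forms

variable {F : Type*} [Field F]

theorem sc_of_comm {Φ : ↥(Gam F) →* ↥(Cfsg.Lie.G2 F)} (hΦ : IsPhi Φ) (γ u : ↥(Gam F))
    (h : Φ u * Φ γ = Φ γ * Φ u) :
    IsSc ((γ * u * γ⁻¹ * u⁻¹ : ↥(Gam F)) : GL (Fin 2) F × GL (Fin 2) F) :=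
  (phi_eq_one_iff hΦ _).1 (by
    rw [map_mul, map_mul, map_mul, map_inv, map_inv, ← h]; group)

theorem smul_one_eq_one {a : F} (h : (1 : M2 F) = a • (1 : M2 F)) : a = 1 := by
  have := congrFun (congrFun h 0) 0
  simpa using this.symm

theorem commL {Φ : ↥(Gam F) →* ↥(Cfsg.Lie.G2 F)} (hΦ : IsPhi Φ) (γ : ↥(Gam F))
    (s : GL (Fin 2) F) (hs : Matrix.GeneralLinearGroup.det s = 1)
    (h : Φ (iL s hs) * Φ γ = Φ γ * Φ (iL s hs)) : γ.1.1 * s = s * γ.1.1 := by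
  obtain ⟨a, ha1, ha2⟩ := sc_of_comm hΦ γ (iL s hs) h
  change ((γ.1.1 * s * γ.1.1⁻¹ * s⁻¹ : GL (Fin 2) F) : M2 F) = a • 1 at ha1
  change ((γ.1.2 * 1 * γ.1.2⁻¹ * 1⁻¹ : GL (Fin 2) F) : M2 F) = a • 1 at ha2
  rw [mul_one, mul_inv_cancel, inv_one, mul_one, Units.val_one] at ha2
  rw [smul_one_eq_one ha2, one_smul] at ha1
  have h1 : γ.1.1 * s * γ.1.1⁻¹ * s⁻¹ = 1 := Units.ext ha1
  rw [mul_inv_eq_one, mul_inv_eq_iff_eq_mul] at h1
  exact h1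

theorem commR {Φ : ↥(Gam F) →* ↥(Cfsg.Lie.G2 F)} (hΦ : IsPhi Φ) (γ : ↥(Gam F))
    (s : GL (Fin 2) F) (hs : Matrix.GeneralLinearGroup.det s = 1)
    (h : Φ (iR s hs) * Φ γ = Φ γ * Φ (iR s hs)) : γ.1.2 * s = s * γ.1.2 := by
  obtain ⟨a, ha1, ha2⟩ := sc_of_comm hΦ γ (iR s hs) h
  change ((γ.1.1 * 1 * γ.1.1⁻¹ * 1⁻¹ : GL (Fin 2) F) : M2 F) = a • 1 at ha1
  change ((γ.1.2 * s * γ.1.2⁻¹ * s⁻¹ : GL (Fin 2) F) : M2 F) = a • 1 at ha2
  rw [mul_one, mul_inv_cancel, inv_one, mul_one, Units.val_one] at ha1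
  rw [smul_one_eq_one ha1, one_smul] at ha2
  have h1 : γ.1.2 * s * γ.1.2⁻¹ * s⁻¹ = 1 := Units.ext ha2
  rw [mul_inv_eq_one, mul_inv_eq_iff_eq_mul] at h1
  exact h1

theorem scalar_of_comm (h2 : (2 : F) ≠ 0) (x₀ y₀ : F) (h : x₀ ^ 2 + y₀ ^ 2 = -1) (c : GL (Fin 2) F)
    (hJ : c * Jg F = Jg F * c) (hK : c * Kg x₀ y₀ h = Kg x₀ y₀ h * c) :
    ∃ a : F, (c : M2 F) = a • (1 : M2 F) := by
  have hc : c ∈ ET F := by
    rw [ET, Subgroup.mem_centralizer_singleton_iff]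
    exact hJ
  obtain ⟨x, y, hxy⟩ := (mem_ET_iff c).1 hc
  have hK' := congrArg (fun u : GL (Fin 2) F => (u : M2 F)) hK
  simp only [Units.val_mul] at hK'
  rw [hxy] at hK'
  change rot x y * ref x₀ y₀ = ref x₀ y₀ * rot x y at hK'
  rw [rot_mul_ref, ref_mul_rot] at hK'
  have e1 := congrFun (congrFun hK' 0) 0
  have e2 := congrFun (congrFun hK' 0) 1
  simp [ref] at e1 e2
  have f1 : y * y₀ = 0 := by
    have : 2 * (y * y₀) = 0 := by linear_combination e1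
    exact (mul_eq_zero.1 this).resolve_left h2
  have f2 : y * x₀ = 0 := by
    have : 2 * (y * x₀) = 0 := by linear_combination e2
    exact (mul_eq_zero.1 this).resolve_left h2
  have hy : y = 0 := by
    have : y * (x₀ ^ 2 + y₀ ^ 2) = 0 := by linear_combination x₀ * f2 + y₀ * f1
    rw [h] at this
    simpa using this
  refine ⟨x, ?_⟩
  rw [hxy, hy]
  ext i j
  fin_cases i <;> fin_cases j <;> simp [rot]

theorem centU (h2 : (2 : F) ≠ 0) {Φ : ↥(Gam F) →* ↥(Cfsg.Lie.G2 F)} (hΦ : IsPhi Φ) (x₀ y₀ : F)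
    (h : x₀ ^ 2 + y₀ ^ 2 = -1) (z : ↥(Cfsg.Lie.G2 F)) (hz : ∀ u ∈ UU x₀ y₀ h, Φ u * z = z * Φ u) :
    z = 1 ∨ z = Φ tG := by
  obtain ⟨γ, rfl⟩ := cent_le_range h2 hΦ z (hz tG (tG_mem_UU x₀ y₀ h)).symm
  obtain ⟨m1, m2, m3, m4⟩ := gens_mem_UU x₀ y₀ h
  obtain ⟨a, ha⟩ := scalar_of_comm h2 x₀ y₀ h γ.1.1 (commL hΦ γ _ _ (hz _ m1)) (commL hΦ γ _ _ (hz _ m2))
  obtain ⟨b, hb⟩ := scalar_of_comm h2 x₀ y₀ h γ.1.2 (commR hΦ γ _ _ (hz _ m3)) (commR hΦ γ _ _ (hz _ m4))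
  have hdet : Matrix.GeneralLinearGroup.det γ.1.1 = Matrix.GeneralLinearGroup.det γ.1.2 := γ.2
  have hdet' := congrArg (fun u : Fˣ => (u : F)) hdet
  simp only [Matrix.GeneralLinearGroup.val_det_apply] at hdet'
  rw [ha, hb] at hdet'
  simp [Matrix.det_fin_two] at hdet'
  have hab : (b - a) * (b + a) = 0 := by linear_combination -hdet'
  rcases mul_eq_zero.1 hab with h1 | h1
  · left
    rw [phi_eq_one_iff hΦ]
    refine ⟨a, ha, ?_⟩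
    rw [hb]
    congr 1
    linear_combination h1
  · right
    have h3 : Φ (γ * tG) = 1 := by
      rw [phi_eq_one_iff hΦ]
      refine ⟨a, ?_, ?_⟩
      · change ((γ.1.1 * 1 : GL (Fin 2) F) : M2 F) = _
        rw [mul_one, ha]
      · change ((γ.1.2 * (-1) : GL (Fin 2) F) : M2 F) = _
        rw [Units.val_mul, hb]
        have : ((-1 : GL (Fin 2) F) : M2 F) = -1 := rfl
        rw [this, mul_neg, mul_one, ← neg_smul]
        congr 1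
        linear_combination -h1
    have h4 : Φ tG * Φ tG = 1 := by
      have := pow_orderOf_eq_one (Φ (tG : ↥(Gam F)))
      rwa [orderOf_t h2 hΦ, sq] at this
    rw [map_mul] at h3
    calc Φ γ = (Φ γ * Φ tG) * Φ tG := by rw [mul_assoc, h4, mul_one]
      _ = Φ tG := by rw [h3, one_mul]

end Cfsg.Agent.Lib.H58G2CentU
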