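import Mathlib
import Cfsg.Agent.Lib.H58G2Defs
import Cfsg.Agent.Lib.H58G2Forms
import Cfsg.Agent.Lib.H58G2Hilb

/-! PROJECT 4632 (row S4632, 10u), piece `Comm`.  Overview: notes/helper58/G2/README.md.
(75 min.)  `right_mem`: `γ = (1, u)`, `u = rot x y` (`mem_ET_iff`), `x² + y² = det u = det 1 = 1` (`γ.2`, `det_rot`).  `hilbert90`: `u * w = w̄`, `w = rot a b`, `w̄ = rot a (-b)`.  `exists_neg_one`: `x₀² + y₀² = -1`.
`σ = mkG (rotG x₀ y₀ _) (refG 1 0 _) _` (both determinants are `-1`), `α = mkG (rotG a b _) (rotG a b _) rfl`; both are in `GN F` (`mem_GN`, `mem_NT_iff`).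
`σ α σ⁻¹ α⁻¹ = (1, n w n⁻¹ w⁻¹) = (1, w̄ w⁻¹) = (1, u)` where `n = ref 1 0 = diag(1,-1)`: prove `σ * α = γ * α * σ` componentwise on matrices (`rot_mul_rot` is commutative; `ref 1 0 * rot a b = ref a b = rot a (-b) * ref 1 0`), then
`γ = ⁅σ, α⁆` and `Subgroup.commutator_mem_commutator`.  `left_mem`: the same with the two coordinates exchanged.
-/

set_option autoImplicit false

namespace Cfsg.Agent.Lib.H58G2Comm

open Matrix Cfsg.Agent.Lib.H58G2Defs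
open scoped MatrixGroups commutatorElement
open Cfsg.Agent.Lib.H58G2Forms
open Cfsg.Agent.Lib.H58G2Hilb

variable {F : Type*} [Field F]

theorem gam_ext {γ δ : ↥(Gam F)} (h1 : (γ.1.1 : M2 F) = (δ.1.1 : M2 F))
    (h2 : (γ.1.2 : M2 F) = (δ.1.2 : M2 F)) : γ = δ :=
  Subtype.ext (Prod.ext (Units.ext h1) (Units.ext h2))

theorem right_mem [Fintype F] (h2 : (2 : F) ≠ 0) (γ : ↥(Gam F)) (h1 : γ.1.1 = 1) (h : γ.1.2 ∈ ET F) :
    γ ∈ ⁅GN F, GN F⁆ := by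
  obtain ⟨x, y, hxy⟩ := (mem_ET_iff γ.1.2).1 h
  have hdet : x ^ 2 + y ^ 2 = 1 := by
    have h3 := γ.2
    rw [mem_Gam, h1, map_one] at h3
    have h4 : ((Matrix.GeneralLinearGroup.det γ.1.2 : Fˣ) : F) = 1 := by rw [← h3]; rfl
    rw [Matrix.GeneralLinearGroup.val_det_apply, hxy, det_rot] at h4
    exact h4
  obtain ⟨a, b, hab, hrot⟩ := hilbert90 h2 x y hdet
  obtain ⟨x₀, y₀, h0⟩ := exists_neg_one (F := F)
  have hn0 : x₀ ^ 2 + y₀ ^ 2 ≠ 0 := by rw [h0]; simp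
  have hn1 : (1 : F) ^ 2 + 0 ^ 2 ≠ 0 := by simp
  let σ : ↥(Gam F) := mkG (rotG x₀ y₀ hn0) (refG 1 0 hn1) (by
    ext; rw [det_rotG, det_refG, h0]; simp)
  let α : ↥(Gam F) := mkG (rotG a b hab) (rotG a b hab) rfl
  have hσ : σ ∈ GN F := by
    rw [mem_GN]
    exact ⟨(mem_NT_iff h2 _).2 ⟨x₀, y₀, Or.inl rfl⟩, (mem_NT_iff h2 _).2 ⟨1, 0, Or.inr rfl⟩⟩
  have hα : α ∈ GN F := by
    rw [mem_GN]
    exact ⟨(mem_NT_iff h2 _).2 ⟨a, b, Or.inl rfl⟩, (mem_NT_iff h2 _).2 ⟨a, b, Or.inl rfl⟩⟩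
  have key : σ * α = γ * α * σ := by
    apply gam_ext
    · show rot x₀ y₀ * rot a b = (γ.1.1 : M2 F) * rot a b * rot x₀ y₀
      rw [h1, Units.val_one, one_mul, rot_mul_rot, rot_mul_rot]
      congr 1 <;> ring
    · show ref 1 0 * rot a b = (γ.1.2 : M2 F) * rot a b * ref 1 0
      rw [hxy, hrot, ref_mul_rot, rot_mul_ref]
      congr 1 <;> ring
  have hγ : γ = ⁅σ, α⁆ := by
    rw [commutatorElement_def, key]; group
  rw [hγ]
  exact Subgroup.commutator_mem_commutator hσ hα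

theorem left_mem [Fintype F] (h2 : (2 : F) ≠ 0) (γ : ↥(Gam F)) (h1 : γ.1.2 = 1) (h : γ.1.1 ∈ ET F) :
    γ ∈ ⁅GN F, GN F⁆ := by
  obtain ⟨x, y, hxy⟩ := (mem_ET_iff γ.1.1).1 h
  have hdet : x ^ 2 + y ^ 2 = 1 := by
    have h3 := γ.2
    rw [mem_Gam, h1, map_one] at h3
    have h4 : ((Matrix.GeneralLinearGroup.det γ.1.1 : Fˣ) : F) = 1 := by rw [h3]; rfl
    rw [Matrix.GeneralLinearGroup.val_det_apply, hxy, det_rot] at h4
    exact h4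
  obtain ⟨a, b, hab, hrot⟩ := hilbert90 h2 x y hdet
  obtain ⟨x₀, y₀, h0⟩ := exists_neg_one (F := F)
  have hn0 : x₀ ^ 2 + y₀ ^ 2 ≠ 0 := by rw [h0]; simp
  have hn1 : (1 : F) ^ 2 + 0 ^ 2 ≠ 0 := by simp
  let σ : ↥(Gam F) := mkG (refG 1 0 hn1) (rotG x₀ y₀ hn0) (by
    ext; rw [det_rotG, det_refG, h0]; simp)
  let α : ↥(Gam F) := mkG (rotG a b hab) (rotG a b hab) rfl
  have hσ : σ ∈ GN F := by
    rw [mem_GN]
    exact ⟨(mem_NT_iff h2 _).2 ⟨1, 0, Or.inr rfl⟩, (mem_NT_iff h2 _).2 ⟨x₀, y₀, Or.inl rfl⟩⟩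
  have hα : α ∈ GN F := by
    rw [mem_GN]
    exact ⟨(mem_NT_iff h2 _).2 ⟨a, b, Or.inl rfl⟩, (mem_NT_iff h2 _).2 ⟨a, b, Or.inl rfl⟩⟩
  have key : σ * α = γ * α * σ := by
    apply gam_ext
    · show ref 1 0 * rot a b = (γ.1.1 : M2 F) * rot a b * ref 1 0
      rw [hxy, hrot, ref_mul_rot, rot_mul_ref]
      congr 1 <;> ring
    · show rot x₀ y₀ * rot a b = (γ.1.2 : M2 F) * rot a b * rot x₀ y₀
      rw [h1, Units.val_one, one_mul, rot_mul_rot, rot_mul_rot]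
      congr 1 <;> ring
  have hγ : γ = ⁅σ, α⁆ := by
    rw [commutatorElement_def, key]; group
  rw [hγ]
  exact Subgroup.commutator_mem_commutator hσ hα

end Cfsg.Agent.Lib.H58G2Comm
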