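import Mathlib
import Cfsg.Agent.Lib.H58G2Defs

/-! PROJECT 4632 (row S4632, 10u), piece `Fib`.  Overview: notes/helper58/G2/README.md.
(45 min, PURE group theory.)  `(c, r) ↦ (c, c⁻¹ r)` is a bijection from the left hand side onto `S × (S ⊓ ker d)`.
-/

set_option autoImplicit false

namespace Cfsg.Agent.Lib.H58G2Fib

open Matrix Cfsg.Agent.Lib.H58G2Defs
open scoped MatrixGroups

variable {F : Type*} [Field F]

theorem card_fib {H D : Type*} [Group H] [Group D] (d : H →* D) (S : Subgroup H) :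
    Nat.card ↥((S.prod S) ⊓ ((d.comp (MonoidHom.fst H H)).eqLocus (d.comp (MonoidHom.snd H H)))) =
      Nat.card ↥S * Nat.card ↥(S ⊓ d.ker) := by
  rw [← Nat.card_prod]
  refine Nat.card_congr
    { toFun := fun x => (⟨x.1.1, (Subgroup.mem_prod.1 x.2.1).1⟩,
        ⟨x.1.1⁻¹ * x.1.2, ?_⟩)
      invFun := fun y => ⟨(y.1.1, y.1.1 * y.2.1), ?_⟩
      left_inv := ?_
      right_inv := ?_ }
  · obtain ⟨h1, h2⟩ := x.2
    have h3 := Subgroup.mem_prod.1 h1
    refine ⟨S.mul_mem (S.inv_mem h3.1) h3.2, ?_⟩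
    have h4 : d x.1.1 = d x.1.2 := h2
    change d (x.1.1⁻¹ * x.1.2) = 1
    rw [map_mul, map_inv, h4, inv_mul_cancel]
  · refine ⟨Subgroup.mem_prod.2 ⟨y.1.2, S.mul_mem y.1.2 y.2.2.1⟩, ?_⟩
    change d y.1.1 = d (y.1.1 * y.2.1)
    have h5 : d y.2.1 = 1 := y.2.2.2
    rw [map_mul, h5, mul_one]
  · intro x
    apply Subtype.ext
    apply Prod.ext
    · rfl
    · exact mul_inv_cancel_left _ _
  · intro y
    apply Prod.ext
    · rfl
    · apply Subtype.ext
      exact inv_mul_cancel_left _ _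

end Cfsg.Agent.Lib.H58G2Fib
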