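import Mathlib
import Cfsg.Agent.Lib.H58G2Defs
import Cfsg.Agent.Lib.H58G2Forms

/-! PROJECT 4632 (row S4632, 10u), piece `GAprops`.  Overview: notes/helper58/G2/README.md.
(45 min.)  All componentwise from `mem_GA`, `mem_GN`, `mem_ET_iff`, `mem_NT_iff`.  `ET F` is commutative (`rot_mul_rot` is symmetric); it is normal in `NT F`: it is the centraliser of `J`, and `c J c⁻¹ = J^{±1}` for `c ∈ NT F`
(or: by the product formulas); squares of `NT F` are in `ET F` (`rot_mul_rot`, `ref_mul_ref`); `a • 1 = rot a 0`.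
-/

set_option autoImplicit false

namespace Cfsg.Agent.Lib.H58G2GAprops

open Matrix Cfsg.Agent.Lib.H58G2Defs
open scoped MatrixGroups
open Cfsg.Agent.Lib.H58G2Forms

variable {F : Type*} [Field F]

theorem GA_le_GN : GA F ≤ GN F := by
  intro γ hγ
  rw [mem_GA] at hγ
  rw [mem_GN]
  exact ⟨ET_le_NT hγ.1, ET_le_NT hγ.2⟩

theorem ET_comm (a b : GL (Fin 2) F) (ha : a ∈ ET F) (hb : b ∈ ET F) : a * b = b * a := by
  obtain ⟨x, y, h⟩ := (mem_ET_iff a).1 ha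
  obtain ⟨x', y', h'⟩ := (mem_ET_iff b).1 hb
  apply Units.ext
  rw [Units.val_mul, Units.val_mul, h, h', rot_mul_rot, rot_mul_rot]
  congr 1 <;> ring

theorem GA_comm : ∀ a ∈ GA F, ∀ b ∈ GA F, a * b = b * a := by
  intro a ha b hb
  rw [mem_GA] at ha hb
  apply Subtype.ext
  apply Prod.ext
  · exact ET_comm _ _ ha.1 hb.1
  · exact ET_comm _ _ ha.2 hb.2

theorem ET_normal (x a : GL (Fin 2) F) (hx : x ∈ NT F) (ha : a ∈ ET F) : x * a * x⁻¹ ∈ ET F := by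
  have hx' : x⁻¹ ∈ NT F := (NT F).inv_mem hx
  rw [NT, Subgroup.mem_normalizer_iff] at hx'
  have h1 := (hx' (Jg F)).1 (Subgroup.mem_zpowers _)
  obtain ⟨k, hk⟩ := Subgroup.mem_zpowers_iff.1 h1
  rw [inv_inv] at hk
  rw [ET, Subgroup.mem_centralizer_singleton_iff] at ha ⊢
  have hc : a * Jg F ^ k = Jg F ^ k * a := (Commute.zpow_right (show Commute a (Jg F) from ha) k)
  have hJ : Jg F = x * Jg F ^ k * x⁻¹ := by
    rw [hk]
    group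
  calc x * a * x⁻¹ * Jg F = x * a * x⁻¹ * (x * Jg F ^ k * x⁻¹) := by rw [← hJ]
    _ = x * (a * Jg F ^ k) * x⁻¹ := by group
    _ = x * (Jg F ^ k * a) * x⁻¹ := by rw [hc]
    _ = (x * Jg F ^ k * x⁻¹) * (x * a * x⁻¹) := by group
    _ = Jg F * (x * a * x⁻¹) := by rw [← hJ]

theorem GA_normal (h2 : (2 : F) ≠ 0) : ∀ x ∈ GN F, ∀ a ∈ GA F, x * a * x⁻¹ ∈ GA F := by
  intro x hx a ha
  rw [mem_GN] at hx
  rw [mem_GA] at ha ⊢
  exact ⟨ET_normal _ _ hx.1 ha.1, ET_normal _ _ hx.2 ha.2⟩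

theorem sq_mem_ET (h2 : (2 : F) ≠ 0) (x : GL (Fin 2) F) (hx : x ∈ NT F) : x ^ 2 ∈ ET F := by
  rw [mem_ET_iff, pow_two, Units.val_mul]
  obtain ⟨u, v, h | h⟩ := (mem_NT_iff h2 x).1 hx
  · rw [h, rot_mul_rot]
    exact ⟨_, _, rfl⟩
  · rw [h, ref_mul_ref]
    exact ⟨_, _, rfl⟩

theorem sq_mem_GA (h2 : (2 : F) ≠ 0) : ∀ x ∈ GN F, x ^ 2 ∈ GA F := by
  intro x hx
  rw [mem_GN] at hx
  rw [mem_GA]
  exact ⟨sq_mem_ET h2 _ hx.1, sq_mem_ET h2 _ hx.2⟩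

theorem sc_mem_GN (γ : ↥(Gam F)) (h : IsSc (γ : GL (Fin 2) F × GL (Fin 2) F)) : γ ∈ GN F := by
  obtain ⟨a, h1, h2⟩ := h
  have e : a • (1 : M2 F) = rot a 0 := by
    ext i j
    fin_cases i <;> fin_cases j <;> simp [rot]
  rw [mem_GN]
  exact ⟨ET_le_NT ((mem_ET_iff _).2 ⟨a, 0, by rw [h1, e]⟩),
    ET_le_NT ((mem_ET_iff _).2 ⟨a, 0, by rw [h2, e]⟩)⟩

end Cfsg.Agent.Lib.H58G2GAprops
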