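import Mathlib
import Cfsg.Agent.Lib.H58G2Defs
import Cfsg.Agent.Lib.H58G2CardNT
import Cfsg.Agent.Lib.H58G2Fib

/-! PROJECT 4632 (row S4632, 10u), piece `OddIdx`.  Overview: notes/helper58/G2/README.md.
(75 min.)  `|Gam F| = |GL₂| * |ker det|` (`card_fib` with `S = ⊤`), `|GL₂| = (q² - 1)(q² - q)` (`Matrix.card_GL_field`), `|ker det| * (q - 1) = |GL₂|` (det is onto) or `Cfsg.Agent.Lib.Helper7SL.card_SL_two`; so `|ker det| = q (q² - 1)`.
`|GN F| = |NT| * |NT ⊓ ker det| = (q - 1) (2 e1)²` (`card_fib` with `S = NT F`; `GN F = (..).subgroupOf (Gam F)` has the cardinality of `(NT.prod NT) ⊓ Gam F`: `Subgroup.subgroupOfEquivOfLe`/`Subgroup.inf_subgroupOf_right`).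
`(GN F).index * |GN F| = |Gam F|`: `idx * 4 (q-1) e1² = q² (q-1)³ (q+1)²`.  `q = 4k+1`: `e1 = 4k`, `idx = q² (2k+1)²`.  `q = 4k+3`: `e1 = 4k+4`, `idx = q² (2k+1)²`.  Odd.
-/

set_option autoImplicit false

namespace Cfsg.Agent.Lib.H58G2OddIdx

open Matrix Cfsg.Agent.Lib.H58G2Defs
open scoped MatrixGroups
open Cfsg.Agent.Lib.H58G2CardNT
open Cfsg.Agent.Lib.H58G2Fib

variable {F : Type*} [Field F]

theorem det_surj : Function.Surjective (Matrix.GeneralLinearGroup.det (n := Fin 2) (R := F)) := by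
  intro u
  refine ⟨Matrix.GeneralLinearGroup.mkOfDetNeZero (Matrix.diagonal ![(u : F), 1])
    (by simp [Matrix.det_diagonal]), ?_⟩
  ext
  rw [Matrix.GeneralLinearGroup.val_det_apply]
  show (Matrix.diagonal ![(u : F), 1]).det = u
  simp [Matrix.det_diagonal]

theorem arith1 (k idx s : ℕ) (hk : 0 < k)
    (hs : s * (4 * k) = (8 * k * (2 * k + 1)) * ((4 * k + 1) * (4 * k)))
    (h : (4 * k * (2 * (4 * k))) * (2 * (4 * k)) * idx
      = (8 * k * (2 * k + 1)) * ((4 * k + 1) * (4 * k)) * s) :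
    idx = ((2 * k + 1) * (4 * k + 1)) ^ 2 := by
  have h1 : s = 8 * k * (2 * k + 1) * (4 * k + 1) := by
    apply Nat.eq_of_mul_eq_mul_right (show 0 < 4 * k by omega)
    rw [hs]; ring
  subst h1
  apply Nat.eq_of_mul_eq_mul_left (show 0 < (4 * k * (2 * (4 * k))) * (2 * (4 * k)) by positivity)
  rw [h]; ring

theorem arith3 (k idx s : ℕ)
    (hs : s * (4 * k + 2) = (8 * (k + 1) * (2 * k + 1)) * ((4 * k + 3) * (4 * k + 2)))
    (h : ((4 * k + 2) * (2 * (4 * k + 4))) * (2 * (4 * k + 4)) * idx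
      = (8 * (k + 1) * (2 * k + 1)) * ((4 * k + 3) * (4 * k + 2)) * s) :
    idx = ((2 * k + 1) * (4 * k + 3)) ^ 2 := by
  have h1 : s = 8 * (k + 1) * (2 * k + 1) * (4 * k + 3) := by
    apply Nat.eq_of_mul_eq_mul_right (show 0 < 4 * k + 2 by omega)
    rw [hs]; ring
  subst h1
  apply Nat.eq_of_mul_eq_mul_left
    (show 0 < ((4 * k + 2) * (2 * (4 * k + 4))) * (2 * (4 * k + 4)) by positivity)
  rw [h]; ring

theorem odd_index [Fintype F] (hF : Odd (Fintype.card F)) : Odd (GN F).index := by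
  classical
  have hGL : Nat.card (GL (Fin 2) F) =
      (Fintype.card F ^ 2 - 1) * (Fintype.card F ^ 2 - Fintype.card F) := by
    rw [Matrix.card_GL_field]
    simp [Fin.prod_univ_two]
  have hker : Nat.card ↥((Matrix.GeneralLinearGroup.det (n := Fin 2) (R := F)).ker) *
      (Fintype.card F - 1) = Nat.card (GL (Fin 2) F) := by
    rw [← Subgroup.card_mul_index (Matrix.GeneralLinearGroup.det (n := Fin 2) (R := F)).ker,
      Subgroup.index_ker, MonoidHom.range_eq_top.2 det_surj, Subgroup.card_top, Nat.card_units,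
      Nat.card_eq_fintype_card (α := F)]
  have hGam : Nat.card ↥(Gam F) = Nat.card (GL (Fin 2) F) *
      Nat.card ↥((Matrix.GeneralLinearGroup.det (n := Fin 2) (R := F)).ker) := by
    have h := card_fib (Matrix.GeneralLinearGroup.det (n := Fin 2) (R := F)) ⊤
    rw [Subgroup.top_prod_top, top_inf_eq, top_inf_eq, Subgroup.card_top] at h
    exact h
  have hGN : Nat.card ↥(GN F) = Nat.card ↥(NT F) *
      Nat.card ↥(NT F ⊓ (Matrix.GeneralLinearGroup.det (n := Fin 2) (R := F)).ker) := by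
    rw [← card_fib]
    unfold GN
    rw [← Subgroup.inf_subgroupOf_right]
    exact Nat.card_congr (Subgroup.subgroupOfEquivOfLe inf_le_right).toEquiv
  rw [card_NT hF, card_NT1 hF] at hGN
  have hidx := Subgroup.card_mul_index (GN F)
  rw [hGN, hGam, hGL] at hidx
  rw [hGL] at hker
  have hq1 : 1 < Fintype.card F := Fintype.one_lt_card
  obtain ⟨m, hm⟩ := hF
  generalize Nat.card ↥((Matrix.GeneralLinearGroup.det (n := Fin 2) (R := F)).ker) = s at hidx hker
  generalize (GN F).index = idx at hidx ⊢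
  unfold e1 at hidx
  generalize Fintype.card F = q at *
  rcases Nat.even_or_odd' m with ⟨k, rfl | rfl⟩
  · have hq : q = 4 * k + 1 := by omega
    subst hq
    have e1 : (4 * k + 1) % 4 = 1 := by omega
    have e2 : (4 * k + 1) ^ 2 - 1 = 8 * k * (2 * k + 1) := by
      apply Nat.sub_eq_of_eq_add; ring
    have e3 : (4 * k + 1) ^ 2 - (4 * k + 1) = (4 * k + 1) * (4 * k) := by
      apply Nat.sub_eq_of_eq_add; ring
    have e4 : 4 * k + 1 - 1 = 4 * k := by omega
    rw [if_pos e1, e2, e3, e4] at hidx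
    rw [e2, e3, e4] at hker
    rw [arith1 k idx s (by omega) hker hidx]
    apply Odd.pow
    exact Odd.mul ⟨k, rfl⟩ ⟨2 * k, by ring⟩
  · have hq : q = 4 * k + 3 := by omega
    subst hq
    have e1 : ¬ (4 * k + 3) % 4 = 1 := by omega
    have e2 : (4 * k + 3) ^ 2 - 1 = 8 * (k + 1) * (2 * k + 1) := by
      apply Nat.sub_eq_of_eq_add; ring
    have e3 : (4 * k + 3) ^ 2 - (4 * k + 3) = (4 * k + 3) * (4 * k + 2) := by
      apply Nat.sub_eq_of_eq_add; ring
    have e4 : 4 * k + 3 - 1 = 4 * k + 2 := by omega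
    have e5 : 4 * k + 3 + 1 = 4 * k + 4 := by omega
    rw [if_neg e1, e2, e3, e4, e5] at hidx
    rw [e2, e3, e4] at hker
    rw [arith3 k idx s hker hidx]
    apply Odd.pow
    exact Odd.mul ⟨k, rfl⟩ ⟨2 * k + 1, by ring⟩

end Cfsg.Agent.Lib.H58G2OddIdx
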