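import Mathlib
import Cfsg.Agent.Lib.H58G2Defs
import Cfsg.Agent.Lib.H58G2ThMul
import Cfsg.Agent.Lib.H58G2ThLin
import Cfsg.Agent.Lib.H58G2ActMul

/-! PROJECT 4632 (row S4632, 10u), piece `Phi`.  Overview: notes/helper58/G2/README.md. -/

set_option autoImplicit false

namespace Cfsg.Agent.Lib.H58G2Phi

open Matrix Cfsg.Agent.Lib.H58G2Defs
open scoped MatrixGroups
open Cfsg.Agent.Lib.H58G2ThMul
open Cfsg.Agent.Lib.H58G2ThLin
open Cfsg.Agent.Lib.H58G2ActMul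

variable {F : Type*} [Field F]

/-- `act γ` as a linear map -/
def actL (γ : GL (Fin 2) F × GL (Fin 2) F) : (M2 F × M2 F) →ₗ[F] (M2 F × M2 F) where
  toFun := act γ
  map_add' := act_add γ
  map_smul' := fun a x => act_smul γ a x

theorem ext_th {A B : Matrix (Fin 8) (Fin 8) F} (h : ∀ x : M2 F × M2 F, A *ᵥ th x = B *ᵥ th x) :
    A = B := by
  apply Matrix.toLin'.injective
  apply LinearMap.ext
  intro v
  obtain ⟨x, rfl⟩ := th_surjective v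
  simpa [Matrix.toLin'_apply] using h x

theorem exists_phi : ∃ Φ : ↥(Gam F) →* ↥(Cfsg.Lie.G2 F), IsPhi Φ := by
  obtain ⟨e, he⟩ := exists_thL (F := F)
  let A : GL (Fin 2) F × GL (Fin 2) F → Matrix (Fin 8) (Fin 8) F := fun γ =>
    LinearMap.toMatrix' ((e : (M2 F × M2 F) →ₗ[F] (Fin 8 → F)) ∘ₗ actL γ ∘ₗ
      (e.symm : (Fin 8 → F) →ₗ[F] (M2 F × M2 F)))
  have hA : ∀ γ x, A γ *ᵥ th x = th (act γ x) := by
    intro γ x
    simp only [A]
    rw [LinearMap.toMatrix'_mulVec]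
    simp only [LinearMap.comp_apply, LinearEquiv.coe_coe]
    rw [← he x, LinearEquiv.symm_apply_apply, he]
    rfl
  have hA1 : A 1 = 1 := by
    apply ext_th
    intro x
    rw [hA, act_one, Matrix.one_mulVec]
  have hAm : ∀ γ γ', A (γ * γ') = A γ * A γ' := by
    intro γ γ'
    apply ext_th
    intro x
    rw [hA, act_mul, ← Matrix.mulVec_mulVec, hA, hA]
  let Ψ₀ : (GL (Fin 2) F × GL (Fin 2) F) →* Matrix (Fin 8) (Fin 8) F :=
    { toFun := A, map_one' := hA1, map_mul' := hAm }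
  let Ψ : (GL (Fin 2) F × GL (Fin 2) F) →* GL (Fin 8) F := Ψ₀.toHomUnits
  have hΨ : ∀ γ, ((Ψ γ : GL (Fin 8) F) : Matrix (Fin 8) (Fin 8) F) = A γ := fun γ => rfl
  have hmem : ∀ γ : ↥(Gam F), (Ψ.comp (Gam F).subtype) γ ∈ Cfsg.Lie.G2 F := by
    intro γ u v
    obtain ⟨x, rfl⟩ := th_surjective u
    obtain ⟨y, rfl⟩ := th_surjective v
    show A γ.1 *ᵥ Cfsg.Lie.zornMul (th x) (th y) =
      Cfsg.Lie.zornMul (A γ.1 *ᵥ th x) (A γ.1 *ᵥ th y)
    rw [th_mul, hA, hA, hA, th_mul, act_cdMul γ.1 γ.2]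
  refine ⟨(Ψ.comp (Gam F).subtype).codRestrict (Cfsg.Lie.G2 F) hmem, ?_⟩
  intro γ x
  exact hA γ.1 x

end Cfsg.Agent.Lib.H58G2Phi
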