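import Mathlib
import Cfsg.Agent.Lib.H58G2Defs
import Cfsg.Agent.Lib.H58G2Forms
import Cfsg.Agent.Lib.H58G2Comm

/-! PROJECT 4632 (row S4632, 10u), piece `Squares`.  Overview: notes/helper58/G2/README.md.
(90 min.)  `γ = (c, r)`, each of `c, r` is `rot` or `ref` (`mem_GN`, `mem_NT_iff`), `det c = det r`.  Notation `N(x,y) = x² + y²`.
`(rot x y)² = N • rot ((x²-y²)/N) (2xy/N)` and the last matrix has norm 1;  `(ref x y)² = N • 1` (`ref_mul_ref`).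
* rot, rot (`N = N'`): `γ² = (N, N) * (u, 1) * (1, u')`, `u, u'` of norm one.
* ref, ref: `γ² = (N, N)`, a pair of equal scalars.
* ref, rot (`-N = N'`): `γ² = (N, N) * (1, -u')`, and `-u' = rot (-..) (-..)` has norm one.   * rot, ref: symmetric.
The factors `(u, 1)`, `(1, u')` are in `⁅GN, GN⁆` by `left_mem`, `right_mem`; the scalar pair is in `K`.  Build the factors with `mkG`, `rotG` and check the product on matrices (`Subtype.ext`, `Prod.ext`, `Units.ext`).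
-/

set_option autoImplicit false

namespace Cfsg.Agent.Lib.H58G2Squares

open Matrix Cfsg.Agent.Lib.H58G2Defs
open scoped MatrixGroups
open Cfsg.Agent.Lib.H58G2Forms
open Cfsg.Agent.Lib.H58G2Comm

variable {F : Type*} [Field F]

theorem sq_form (h2 : (2 : F) ≠ 0) (c : GL (Fin 2) F) (hc : c ∈ NT F) :
    ∃ u : GL (Fin 2) F, u ∈ ET F ∧ Matrix.GeneralLinearGroup.det u = 1 ∧
      ((c ^ 2 : GL (Fin 2) F) : M2 F) = ((Matrix.GeneralLinearGroup.det c : Fˣ) : F) • (u : M2 F) := by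
  obtain ⟨x, y, h | h⟩ := (mem_NT_iff h2 c).1 hc
  · have hdet : ((Matrix.GeneralLinearGroup.det c : Fˣ) : F) = x ^ 2 + y ^ 2 := by
      rw [Matrix.GeneralLinearGroup.val_det_apply, h, det_rot]
    have hN : x ^ 2 + y ^ 2 ≠ 0 := by rw [← hdet]; exact Units.ne_zero _
    have hn1 : ((x ^ 2 - y ^ 2) / (x ^ 2 + y ^ 2)) ^ 2 + (2 * x * y / (x ^ 2 + y ^ 2)) ^ 2 = 1 := by
      field_simp
      ring
    refine ⟨rotG ((x ^ 2 - y ^ 2) / (x ^ 2 + y ^ 2)) (2 * x * y / (x ^ 2 + y ^ 2))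
      (by rw [hn1]; exact one_ne_zero), (mem_ET_iff _).2 ⟨_, _, rfl⟩, ?_, ?_⟩
    · ext
      rw [det_rotG, hn1]
      rfl
    · rw [hdet, coe_rotG, pow_two, Units.val_mul, h, rot_mul_rot]
      ext i j
      fin_cases i <;> fin_cases j <;> simp [rot] <;> field_simp <;> ring
  · have hdet : ((Matrix.GeneralLinearGroup.det c : Fˣ) : F) = -(x ^ 2 + y ^ 2) := by
      rw [Matrix.GeneralLinearGroup.val_det_apply, h, det_ref]
    refine ⟨rotG (-1) 0 (by simp), (mem_ET_iff _).2 ⟨_, _, rfl⟩, ?_, ?_⟩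
    · ext
      rw [det_rotG]
      simp
    · rw [hdet, coe_rotG, pow_two, Units.val_mul, h, ref_mul_ref]
      ext i j
      fin_cases i <;> fin_cases j <;> simp [rot] <;> ring

theorem sc_of_eq (c u : GL (Fin 2) F) (a : F) (h : (c : M2 F) = a • (u : M2 F)) :
    ((c * u⁻¹ : GL (Fin 2) F) : M2 F) = a • (1 : M2 F) := by
  rw [Units.val_mul, h, smul_mul_assoc, ← Units.val_mul, mul_inv_cancel, Units.val_one]

theorem sq_mem [Fintype F] (h2 : (2 : F) ≠ 0) (K : Subgroup ↥(Gam F))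
    (hK : ∀ γ : ↥(Gam F), IsSc (γ : GL (Fin 2) F × GL (Fin 2) F) → γ ∈ K) (γ : ↥(Gam F)) (hγ : γ ∈ GN F) :
    γ ^ 2 ∈ ⁅GN F, GN F⁆ ⊔ K := by
  obtain ⟨hc, hr⟩ := (mem_GN γ).1 hγ
  obtain ⟨u, hu, hu1, hcu⟩ := sq_form h2 _ hc
  obtain ⟨u', hu', hu1', hru⟩ := sq_form h2 _ hr
  have hdet : Matrix.GeneralLinearGroup.det γ.1.1 = Matrix.GeneralLinearGroup.det γ.1.2 := γ.2
  have e : γ ^ 2 = iL u hu1 * iR u' hu1' * ((iR u' hu1')⁻¹ * (iL u hu1)⁻¹ * γ ^ 2) := by group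
  rw [e]
  refine Subgroup.mul_mem_sup (Subgroup.mul_mem _ (left_mem h2 _ rfl hu) (right_mem h2 _ rfl hu')) (hK _ ?_)
  refine ⟨((Matrix.GeneralLinearGroup.det γ.1.1 : Fˣ) : F), ?_, ?_⟩
  · have h := sc_of_eq _ _ _ hcu
    have e1 : ((((iR u' hu1')⁻¹ * (iL u hu1)⁻¹ * γ ^ 2 : ↥(Gam F)) : GL (Fin 2) F × GL (Fin 2) F)).1
        = u⁻¹ * γ.1.1 ^ 2 := by
      simp [iR, iL, mkG]
    rw [e1]
    have e2 : u⁻¹ * γ.1.1 ^ 2 = u⁻¹ * (γ.1.1 ^ 2 * u⁻¹) * u := by group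
    rw [e2, Units.val_mul, Units.val_mul, h]
    rw [mul_smul_comm, mul_one, smul_mul_assoc, ← Units.val_mul, inv_mul_cancel, Units.val_one]
  · have h := sc_of_eq _ _ _ hru
    have e1 : ((((iR u' hu1')⁻¹ * (iL u hu1)⁻¹ * γ ^ 2 : ↥(Gam F)) : GL (Fin 2) F × GL (Fin 2) F)).2
        = u'⁻¹ * γ.1.2 ^ 2 := by
      simp [iR, iL, mkG]
    rw [e1, hdet]
    have e2 : u'⁻¹ * γ.1.2 ^ 2 = u'⁻¹ * (γ.1.2 ^ 2 * u'⁻¹) * u' := by group
    rw [e2, Units.val_mul, Units.val_mul, h]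
    rw [mul_smul_comm, mul_one, smul_mul_assoc, ← Units.val_mul, inv_mul_cancel, Units.val_one]

end Cfsg.Agent.Lib.H58G2Squares
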