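import Mathlib

set_option autoImplicit false
set_option linter.unusedSectionVars false
set_option linter.unusedVariables false

namespace Cfsg.Agent.Lib.H59SNCen

open Subgroup

/-- `K ⊓ S ≠ ⊥`: by Cauchy `K` has an element of order `s`; it lies in a conjugate `g • S`
(`IsPGroup.exists_le_sylow` + conjugacy), and `K` is normal, so conjugating back gives an element of `K ⊓ S`.
`S` acts by conjugation on the set `K ⊓ S` (normal in `S`), whose cardinality is a power `s^k`, `k ≥ 1`; the number of
fixed points is `≡ 0 mod s` and `1` is fixed, so there is another fixed point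
(`IsPGroup.exists_fixed_point_of_prime_dvd_card_of_fixed_point`). -/
theorem exists_central {G : Type*} [Group G] [Finite G] (K : Subgroup G) [K.Normal] (s : ℕ)
    [Fact s.Prime] (hs : s ∣ Nat.card K) (S : Sylow s G) :
    ∃ z, z ∈ K ∧ z ∈ (S : Subgroup G) ∧ z ≠ 1 ∧ ∀ y ∈ (S : Subgroup G), Commute z y := by
  obtain ⟨k, hk⟩ := exists_prime_orderOf_dvd_card' (G := K) s hs
  have hk' : orderOf (k : G) = s := by rw [Subgroup.orderOf_coe, hk]
  have hz : IsPGroup s (zpowers (k : G)) :=
    IsPGroup.of_card (n := 1) (by rw [Nat.card_zpowers, hk', pow_one])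
  obtain ⟨S', hS'⟩ := hz.exists_le_sylow
  obtain ⟨g, hg⟩ := MulAction.exists_smul_eq G S' S
  have hmemS : g * (k : G) * g⁻¹ ∈ (S : Subgroup G) := by
    rw [← hg, Sylow.coe_subgroup_smul, Subgroup.mem_pointwise_smul_iff_inv_smul_mem]
    simpa [MulAut.smul_def, mul_assoc] using hS' (mem_zpowers (k : G))
  have hmemK : g * (k : G) * g⁻¹ ∈ K := ‹K.Normal›.conj_mem k k.2 g
  have hord : orderOf (g * (k : G) * g⁻¹) = s := by
    have := orderOf_injective (MulAut.conj g).toMonoidHom (MulAut.conj g).injective (k : G)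
    rw [← hk', ← this]
    simp
  -- the normal subgroup `H = K ∩ S` of `S`
  let H : Subgroup (S : Subgroup G) := K.subgroupOf S
  have hHn : H.Normal := inferInstance
  let h0 : H := ⟨⟨g * (k : G) * g⁻¹, hmemS⟩, hmemK⟩
  have hh0 : orderOf h0 = s := by
    rw [← Subgroup.orderOf_coe, ← Subgroup.orderOf_coe]
    exact hord
  have hdvd : s ∣ Nat.card H := by
    have := orderOf_dvd_natCard h0
    rwa [hh0] at this
  letI : MulAction (S : Subgroup G) H := MulAction.compHom H (MulAut.conjNormal (H := H))
  have hsmul : ∀ (x : (S : Subgroup G)) (t : H), (((x • t : H) : (S : Subgroup G)) : G)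
      = x * t * (x : G)⁻¹ := by
    intro x t
    rfl
  have h1 : (1 : H) ∈ MulAction.fixedPoints (S : Subgroup G) H := by
    rw [MulAction.mem_fixedPoints]
    intro x
    apply Subtype.ext
    apply Subtype.ext
    rw [hsmul]
    simp
  obtain ⟨b, hb, hb1⟩ := S.2.exists_fixed_point_of_prime_dvd_card_of_fixed_point H hdvd h1
  refine ⟨((b : (S : Subgroup G)) : G), b.2, (b : (S : Subgroup G)).2, ?_, ?_⟩
  · intro h
    apply hb1
    apply Subtype.ext
    apply Subtype.ext
    exact h.symm
  · intro y hy
    rw [MulAction.mem_fixedPoints] at hb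
    have h2 := congrArg (fun t : H => ((t : (S : Subgroup G)) : G)) (hb ⟨y, hy⟩)
    simp only [hsmul] at h2
    have h3 : y * ((b : (S : Subgroup G)) : G) = ((b : (S : Subgroup G)) : G) * y := by
      calc y * ((b : (S : Subgroup G)) : G) = y * ((b : (S : Subgroup G)) : G) * y⁻¹ * y := by group
        _ = ((b : (S : Subgroup G)) : G) * y := by rw [h2]
    exact h3.symm

end Cfsg.Agent.Lib.H59SNCen
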