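import Mathlib

set_option autoImplicit false
set_option linter.unusedSectionVars false
set_option linter.unusedVariables false

namespace Cfsg.Agent.Lib.H59SNComm

open Subgroup

/-- `z ∈ K ⊓ S`, `x ∈ R`, `r ≠ s`.  `c = z x z⁻¹ x⁻¹ ∈ R` as `z ∈ K ≤ N(R)`.  `x z⁻¹ x⁻¹ ∈ K ⊓ (x • S)`;
`K ⊓ (x • S)` is an `s`-subgroup of `N(S)` (as `K ≤ N(S)`), so it lies in `S`
(`IsPGroup.inf_normalizer_sylow`), so `c ∈ S`.  `S ⊓ R = ⊥` (`IsPGroup.disjoint_of_ne`). -/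
theorem commute_of {G : Type*} [Group G] [Finite G] (K : Subgroup G) [K.Normal] (s r : ℕ)
    [Fact s.Prime] [Fact r.Prime] (hsr : s ≠ r)
    (hKs : ∀ S : Sylow s G, K ≤ normalizer ((S : Subgroup G) : Set G))
    (hKr : ∀ R : Sylow r G, K ≤ normalizer ((R : Subgroup G) : Set G))
    (S : Sylow s G) (R : Sylow r G) (z x : G) (hzK : z ∈ K) (hzS : z ∈ (S : Subgroup G))
    (hx : x ∈ (R : Subgroup G)) : Commute z x := by
  have hcR : z * x * z⁻¹ * x⁻¹ ∈ (R : Subgroup G) :=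
    mul_mem ((mem_normalizer_iff.1 (hKr R hzK) x).1 hx) (inv_mem hx)
  have hw : x * z⁻¹ * x⁻¹ ∈ (S : Subgroup G) := by
    have hQ : IsPGroup s ((S : Subgroup G).map (MulAut.conj x).toMonoidHom) := S.2.map _
    have hwQ : x * z⁻¹ * x⁻¹ ∈ (S : Subgroup G).map (MulAut.conj x).toMonoidHom :=
      ⟨z⁻¹, inv_mem hzS, by simp⟩
    have hwK : x * z⁻¹ * x⁻¹ ∈ K := ‹K.Normal›.conj_mem _ (inv_mem hzK) x
    have h1 := (hQ.to_inf_left (K := K)).inf_normalizer_sylow S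
    have h2 : x * z⁻¹ * x⁻¹ ∈
        ((S : Subgroup G).map (MulAut.conj x).toMonoidHom ⊓ K) ⊓ normalizer ((S : Subgroup G) : Set G) :=
      ⟨⟨hwQ, hwK⟩, hKs S hwK⟩
    have h3 : x * z⁻¹ * x⁻¹ ∈
        ((S : Subgroup G).map (MulAut.conj x).toMonoidHom ⊓ K) ⊓ (S : Subgroup G) := h1 ▸ h2
    exact h3.2
  have hcS : z * x * z⁻¹ * x⁻¹ ∈ (S : Subgroup G) := by
    have := mul_mem hzS hw
    have e : z * (x * z⁻¹ * x⁻¹) = z * x * z⁻¹ * x⁻¹ := by group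
    rwa [e] at this
  have hdisj := IsPGroup.disjoint_of_ne s r hsr (S : Subgroup G) (R : Subgroup G) S.2 R.2
  have hc1 : z * x * z⁻¹ * x⁻¹ = 1 := by
    have : z * x * z⁻¹ * x⁻¹ ∈ (S : Subgroup G) ⊓ (R : Subgroup G) := ⟨hcS, hcR⟩
    rw [hdisj.eq_bot] at this
    exact this
  show z * x = x * z
  calc z * x = (z * x * z⁻¹ * x⁻¹) * (x * z) := by group
    _ = x * z := by rw [hc1, one_mul]

end Cfsg.Agent.Lib.H59SNComm
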