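import Mathlib

set_option autoImplicit false
set_option linter.unusedSectionVars false
set_option linter.unusedVariables false

namespace Cfsg.Agent.Lib.H59SNSub

open Subgroup

/-- `n_r(L) ≤ n_r(H)` for `L` embedded in `H`.  `Sylow.exists_comap_eq_of_injective` gives for each
`Q : Sylow r L` a `P : Sylow r H` with `P.comap ι = Q`; choosing such `P` gives an injection. -/
theorem card_sylow_le {L H : Type*} [Group L] [Group H] [Finite H] (ι : L →* H)
    (hι : Function.Injective ι) (r : ℕ) [Fact r.Prime] :
    Nat.card (Sylow r L) ≤ Nat.card (Sylow r H) := by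
  have hex : ∀ Q : Sylow r L, ∃ P : Sylow r H, (P : Subgroup H).comap ι = Q :=
    fun Q => Sylow.exists_comap_eq_of_injective Q hι
  choose f hf using hex
  apply Nat.card_le_card_of_injective f
  intro Q Q' h
  apply Sylow.ext
  rw [← hf Q, ← hf Q', h]

end Cfsg.Agent.Lib.H59SNSub
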