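import Mathlib
import Cfsg.Agent.Lib.H59SNSub

set_option autoImplicit false
set_option linter.unusedSectionVars false
set_option linter.unusedVariables false

namespace Cfsg.Agent.Lib.H59SNEq

open Subgroup

/-- If `K ⊴ G` and `s ∤ |G : K|`, every Sylow `s`-subgroup `S` of `G` lies in `K`
(the image of `S` in `G ⧸ K` is an `s`-group of order dividing `|G:K|`, so trivial). -/
theorem sylow_le {G : Type*} [Group G] [Finite G] (K : Subgroup G) [K.Normal] (s : ℕ)
    [Fact s.Prime] (hs : ¬ s ∣ K.index) (S : Sylow s G) : (S : Subgroup G) ≤ K := by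
  intro x hx
  obtain ⟨k, hk⟩ := (IsPGroup.iff_orderOf.1 S.2) ⟨x, hx⟩
  have hk' : orderOf x = s ^ k := by rw [← hk, Subgroup.orderOf_mk]
  have h1 : orderOf (QuotientGroup.mk' K x) ∣ s ^ k := hk' ▸ orderOf_map_dvd _ x
  have h2 : orderOf (QuotientGroup.mk' K x) ∣ K.index := by
    rw [Subgroup.index_eq_card]
    exact orderOf_dvd_natCard _
  have hcop : Nat.Coprime (s ^ k) K.index :=
    Nat.Coprime.pow_left k ((Nat.Prime.coprime_iff_not_dvd Fact.out).2 hs)
  have h3 := Nat.eq_one_of_dvd_coprimes hcop h1 h2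
  rw [orderOf_eq_one_iff] at h3
  exact (QuotientGroup.eq_one_iff x).1 h3

/-- `≥` is `H59SNSub.card_sylow_le K.subtype`; `≤`: `S ↦ S.subtype (sylow_le …)` is injective
(`Sylow.subtype_injective`). -/
theorem card_sylow_eq {G : Type*} [Group G] [Finite G] (K : Subgroup G) [K.Normal] (s : ℕ)
    [Fact s.Prime] (hs : ¬ s ∣ K.index) : Nat.card (Sylow s G) = Nat.card (Sylow s K) := by
  apply le_antisymm
  · exact Nat.card_le_card_of_injective (fun S : Sylow s G => S.subtype (sylow_le K s hs S))
      (fun _ _ h => Sylow.subtype_injective h)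
  · exact Cfsg.Agent.Lib.H59SNSub.card_sylow_le K.subtype K.subtype_injective s

end Cfsg.Agent.Lib.H59SNEq
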