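import Mathlib

set_option autoImplicit false
set_option linter.unusedSectionVars false
set_option linter.unusedVariables false

namespace Cfsg.Agent.Lib.H59SNNS

open Subgroup

/-- `T.map K.subtype` is an `r`-subgroup of `G`, so it lies in a Sylow `r`-subgroup `R` of `G`
(`IsPGroup.exists_le_sylow`).  `R.subgroupOf K` is an `r`-subgroup of `K` containing `T`, so it equals `T`
(`Sylow.is_maximal'`), and it is normal in `K` because `K ≤ normalizer R`. -/
theorem normal_sylow {G : Type*} [Group G] [Finite G] (K : Subgroup G) (r : ℕ) [Fact r.Prime]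
    (hK : ∀ R : Sylow r G, K ≤ normalizer ((R : Subgroup G) : Set G)) (T : Sylow r K) :
    (T : Subgroup K).Normal := by
  obtain ⟨R, hR⟩ := Sylow.exists_comap_eq_of_injective T K.subtype_injective
  have : (T : Subgroup K) = (R : Subgroup G).subgroupOf K := hR.symm
  rw [this]
  exact Subgroup.normal_subgroupOf_of_le_normalizer (hK R)

end Cfsg.Agent.Lib.H59SNNS
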