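import Mathlib

set_option autoImplicit false
set_option linter.unusedSectionVars false
set_option linter.unusedVariables false

namespace Cfsg.Agent.Lib.H59SNInf

open Subgroup

/-- A normal Sylow subgroup `T` meets every subgroup `N` in a Sylow subgroup of `N`.
Take `Q : Sylow r N`; `Q.map N.subtype` is an `r`-subgroup of `K`, so it lies in a Sylow subgroup of `K`, which is `T`
(`Sylow.unique_of_normal` / `Subsingleton`), so `Q.map N.subtype ≤ T ⊓ N`; `(T ⊓ N).subgroupOf N` is an `r`-group
containing `Q`, so equal; `|Q| = r ^ v_r(|N|)` by `Sylow.card_eq_multiplicity`. -/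
theorem card_inf {K : Type*} [Group K] [Finite K] (r : ℕ) [Fact r.Prime] (T : Sylow r K)
    (hT : (T : Subgroup K).Normal) (N : Subgroup K) :
    Nat.card ((T : Subgroup K) ⊓ N : Subgroup K) = r ^ (Nat.card N).factorization r := by
  obtain ⟨Q⟩ : Nonempty (Sylow r N) := inferInstance
  obtain ⟨R, hR⟩ := Sylow.exists_comap_eq_of_injective Q N.subtype_injective
  have hsub : Subsingleton (Sylow r K) := (Sylow.unique_of_normal T hT).instSubsingleton
  have hRT : R = T := Subsingleton.elim _ _
  rw [hRT] at hR
  have h1 : Nat.card (Q : Subgroup N) = r ^ (Nat.card N).factorization r :=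
    Sylow.card_eq_multiplicity Q
  rw [← h1, ← hR]
  have h2 : ((T : Subgroup K).comap N.subtype) = (T : Subgroup K).subgroupOf N := rfl
  rw [h2, ← Subgroup.inf_subgroupOf_right]
  exact (Nat.card_congr (Subgroup.subgroupOfEquivOfLe inf_le_right).toEquiv).symm

end Cfsg.Agent.Lib.H59SNInf
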