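import Mathlib

set_option autoImplicit false
set_option linter.unusedSectionVars false
set_option linter.unusedVariables false

namespace Cfsg.Agent.Lib.H59SNMod

open Subgroup

/-- `S` acts on `T` by conjugation (`MulAut.conjNormal`, `MulAction.compHom`…); the fixed points are
`T ⊓ centralizer S`, and `T ⊓ normalizer S = T ⊓ centralizer S`: for `t ∈ T ⊓ N(S)`, `x ∈ S`,
`t x t⁻¹ x⁻¹ ∈ S ⊓ T = ⊥`.  Conclude by `IsPGroup.card_modEq_card_fixedPoints`. -/
theorem card_modEq {K : Type*} [Group K] [Finite K] (s : ℕ) [Fact s.Prime] (T : Subgroup K)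
    [T.Normal] (S : Subgroup K) (hS : IsPGroup s S) (hTS : T ⊓ S = ⊥) :
    Nat.card T ≡ Nat.card (T ⊓ normalizer (S : Set K) : Subgroup K) [MOD s] := by
  letI : MulAction S T := MulAction.compHom T ((MulAut.conjNormal (H := T)).comp S.subtype)
  have hsmul : ∀ (x : S) (t : T), ((x • t : T) : K) = x * t * (x : K)⁻¹ := by
    intro x t
    rfl
  have h1 := hS.card_modEq_card_fixedPoints T
  have hfix : ∀ t : T, t ∈ MulAction.fixedPoints S T ↔ (t : K) ∈ normalizer (S : Set K) := by
    intro t
    rw [MulAction.mem_fixedPoints]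
    constructor
    · intro h
      have hc : ∀ x ∈ S, x * (t : K) * x⁻¹ = t := by
        intro x hx
        have := congrArg Subtype.val (h ⟨x, hx⟩)
        rwa [hsmul] at this
      have hc' : ∀ x ∈ S, (t : K) * x * (t : K)⁻¹ = x := by
        intro x hx
        have h2 := hc x hx
        have h3 : x * (t : K) = t * x := by
          calc x * (t : K) = x * t * x⁻¹ * x := by group
            _ = t * x := by rw [h2]
        rw [← h3]; group
      rw [mem_normalizer_iff]
      intro h'
      constructor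
      · intro hh
        rw [hc' h' hh]; exact hh
      · intro hh
        have h2 := hc' _ hh
        have h3 : (t : K) * h' * (t : K)⁻¹ = h' := by
          have : (t : K) * ((t : K) * h' * (t : K)⁻¹) * (t : K)⁻¹ = (t : K) * h' * (t : K)⁻¹ := h2
          have h4 := mul_left_cancel (mul_right_cancel this)
          exact h4
        rw [← h3]; exact hh
    · intro hn x
      apply Subtype.ext
      rw [hsmul]
      have hT1 : (x : K) * t * (x : K)⁻¹ * (t : K)⁻¹ ∈ T :=
        T.mul_mem (‹T.Normal›.conj_mem t t.2 x) (T.inv_mem t.2)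
      have hS1 : (x : K) * t * (x : K)⁻¹ * (t : K)⁻¹ ∈ S := by
        have h2 : (t : K) * (x : K)⁻¹ * (t : K)⁻¹ ∈ S :=
          (mem_normalizer_iff.mp hn _).mp (S.inv_mem x.2)
        have h3 : (x : K) * t * (x : K)⁻¹ * (t : K)⁻¹ = x * ((t : K) * (x : K)⁻¹ * (t : K)⁻¹) := by
          group
        rw [h3]; exact S.mul_mem x.2 h2
      have h4 : (x : K) * t * (x : K)⁻¹ * (t : K)⁻¹ ∈ T ⊓ S := ⟨hT1, hS1⟩
      rw [hTS, mem_bot] at h4
      exact mul_inv_eq_one.mp h4
  have h2 : Nat.card (MulAction.fixedPoints S T)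
      = Nat.card (T ⊓ normalizer (S : Set K) : Subgroup K) := by
    apply Nat.card_congr
    exact
      { toFun := fun t => ⟨(t.1 : K), t.1.2, (hfix t.1).mp t.2⟩
        invFun := fun t => ⟨⟨t.1, t.2.1⟩, (hfix ⟨t.1, t.2.1⟩).mpr t.2.2⟩
        left_inv := fun t => rfl
        right_inv := fun t => rfl }
  rw [← h2]
  exact h1

end Cfsg.Agent.Lib.H59SNMod
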