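import Mathlib
import Cfsg.Agent.Lib.H59SNInf
import Cfsg.Agent.Lib.H59SNMod

set_option autoImplicit false
set_option linter.unusedSectionVars false
set_option linter.unusedVariables false

namespace Cfsg.Agent.Lib.H59SNPart

open Subgroup

/-- The `r`-part of `n_s(K)` is `≡ 1 mod s` when `K` has a normal Sylow `r`-subgroup `T`. -/
theorem rpart {K : Type*} [Group K] [Finite K] (s r : ℕ) [Fact s.Prime] [Fact r.Prime]
    (hsr : s ≠ r) (T : Sylow r K) (hT : (T : Subgroup K).Normal) :
    ∃ a m, Nat.card (Sylow s K) = r ^ a * m ∧ ¬ r ∣ m ∧ r ^ a % s = 1 := by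
  classical
  obtain ⟨S⟩ : Nonempty (Sylow s K) := inferInstance
  have hn : Nat.card (Sylow s K) = (normalizer ((S : Subgroup K) : Set K)).index :=
    Sylow.card_eq_index_normalizer S
  have hmul : Nat.card (normalizer ((S : Subgroup K) : Set K)) *
      (normalizer ((S : Subgroup K) : Set K)).index = Nat.card K := Subgroup.card_mul_index _
  have hn0 : (normalizer ((S : Subgroup K) : Set K)).index ≠ 0 := Subgroup.index_ne_zero_of_finite
  have hN0 : Nat.card (normalizer ((S : Subgroup K) : Set K)) ≠ 0 := Nat.card_pos.ne'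
  have hsp : s.Prime := Fact.out
  have hrp : r.Prime := Fact.out
  refine ⟨(normalizer ((S : Subgroup K) : Set K)).index.factorization r, _,
    by rw [hn]; exact (Nat.ordProj_mul_ordCompl_eq_self _ r).symm,
    Nat.not_dvd_ordCompl hrp hn0, ?_⟩
  have hT1 : Nat.card (T : Subgroup K) = r ^ (Nat.card K).factorization r :=
    Sylow.card_eq_multiplicity T
  have hT2 := H59SNInf.card_inf r T hT (normalizer ((S : Subgroup K) : Set K))
  haveI := hT
  have hTS : (T : Subgroup K) ⊓ S = ⊥ :=
    (IsPGroup.disjoint_of_ne r s hsr.symm _ _ T.2 S.2).eq_bot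
  have hmod := H59SNMod.card_modEq s (T : Subgroup K) (S : Subgroup K) S.2 hTS
  rw [hT1, hT2, ← hmul, Nat.factorization_mul hN0 hn0, Finsupp.add_apply, pow_add] at hmod
  have hcop : s.gcd (r ^ (Nat.card (normalizer ((S : Subgroup K) : Set K))).factorization r) = 1 :=
    Nat.Coprime.pow_right _ ((Nat.coprime_primes hsp hrp).2 hsr)
  have h1 : r ^ (normalizer ((S : Subgroup K) : Set K)).index.factorization r ≡ 1 [MOD s] := by
    apply Nat.ModEq.cancel_left_of_coprime hcop
    rw [mul_one]
    exact hmod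
  rw [h1, Nat.mod_eq_of_lt hsp.one_lt]

end Cfsg.Agent.Lib.H59SNPart
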