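import Mathlib

set_option autoImplicit false
set_option linter.unusedSectionVars false
set_option linter.unusedVariables false

namespace Cfsg.Agent.Lib.H59SNTop

open Subgroup

/-- For every prime `r`, `r^{v_r|G|} = |R|` divides `|H|`, so `|G| ∣ |H|`
(`Nat.factorization_le_iff_dvd` / `Nat.factorization_prime_le_iff_dvd`), so `H = ⊤`
(`Subgroup.eq_top_of_card_eq`/`eq_top_of_le_card`). -/
theorem eq_top_of_sylow_le {G : Type*} [Group G] [Finite G] (H : Subgroup G)
    (h : ∀ (r : ℕ) [Fact r.Prime], r ∣ Nat.card G → ∃ R : Sylow r G, (R : Subgroup G) ≤ H) :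
    H = ⊤ := by
  have hG : Nat.card G ≠ 0 := Nat.card_pos.ne'
  have hH : Nat.card H ≠ 0 := Nat.card_pos.ne'
  have hdvd : Nat.card G ∣ Nat.card H := by
    rw [← Nat.factorization_prime_le_iff_dvd hG hH]
    intro r hr
    have : Fact r.Prime := ⟨hr⟩
    by_cases hrd : r ∣ Nat.card G
    · obtain ⟨R, hR⟩ := h r hrd
      have h1 : Nat.card (R : Subgroup G) ∣ Nat.card H := Subgroup.card_dvd_of_le hR
      rw [Sylow.card_eq_multiplicity] at h1
      exact (hr.pow_dvd_iff_le_factorization hH).mp h1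
    · rw [Nat.factorization_eq_zero_of_not_dvd hrd]
      exact Nat.zero_le _
  exact Subgroup.eq_top_of_le_card H (Nat.le_of_dvd Nat.card_pos hdvd)

end Cfsg.Agent.Lib.H59SNTop
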