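import Mathlib
import Cfsg.Agent.Lib.H59SNComm
import Cfsg.Agent.Lib.H59SNCen
import Cfsg.Agent.Lib.H59SNTop
import Cfsg.Agent.Lib.H59SNEq
import Cfsg.Agent.Lib.H59SNNS
import Cfsg.Agent.Lib.H59SNPart

set_option autoImplicit false

namespace Cfsg.Agent.Lib.H59SNCore

open Subgroup

/-- A normal subgroup normalizing every Sylow subgroup of a centreless group is trivial. -/
theorem ker_trivial {G : Type*} [Group G] [Finite G] (hZ : Subgroup.center G = ⊥)
    (K : Subgroup G) [K.Normal]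
    (hK : ∀ (r : ℕ) [Fact r.Prime], r ∣ Nat.card G →
      ∀ R : Sylow r G, K ≤ normalizer ((R : Subgroup G) : Set G)) : K = ⊥ := by
  by_contra hne
  have hcard : Nat.card K ≠ 1 := by
    intro h
    exact hne ((Subgroup.card_eq_one).1 h)
  obtain ⟨s, hs, hsK⟩ := Nat.exists_prime_and_dvd hcard
  haveI : Fact s.Prime := ⟨hs⟩
  have hsG : s ∣ Nat.card G := hsK.trans (Subgroup.card_subgroup_dvd_card K)
  obtain ⟨S⟩ : Nonempty (Sylow s G) := inferInstance
  obtain ⟨z, hzK, hzS, hz1, hzc⟩ := H59SNCen.exists_central K s hsK S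
  have htop : Subgroup.centralizer ({z} : Set G) = ⊤ := by
    apply H59SNTop.eq_top_of_sylow_le
    intro r _ hr
    by_cases hrs : s = r
    · subst hrs
      refine ⟨S, fun y hy => ?_⟩
      rw [Subgroup.mem_centralizer_singleton_iff]
      exact (hzc y hy).symm.eq
    · obtain ⟨R⟩ : Nonempty (Sylow r G) := inferInstance
      refine ⟨R, fun y hy => ?_⟩
      rw [Subgroup.mem_centralizer_singleton_iff]
      exact (H59SNComm.commute_of K s r hrs (hK s hsG) (hK r hr) S R z y hzK hzS hy).symm.eq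
  have hzZ : z ∈ Subgroup.center G := by
    rw [Subgroup.mem_center_iff]
    intro g
    have hg : g ∈ Subgroup.centralizer ({z} : Set G) := by rw [htop]; trivial
    rw [Subgroup.mem_centralizer_singleton_iff] at hg
    exact hg
  rw [hZ, Subgroup.mem_bot] at hzZ
  exact hz1 hzZ

/-- The exclusion lemma. -/
theorem excl {G : Type*} [Group G] [Finite G] (K : Subgroup G) [K.Normal] (s r : ℕ)
    [Fact s.Prime] [Fact r.Prime] (hsr : s ≠ r) (hs : ¬ s ∣ K.index)
    (hK : ∀ R : Sylow r G, K ≤ normalizer ((R : Subgroup G) : Set G)) :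
    ∃ a m, Nat.card (Sylow s G) = r ^ a * m ∧ ¬ r ∣ m ∧ r ^ a % s = 1 := by
  obtain ⟨T⟩ : Nonempty (Sylow r K) := inferInstance
  rw [H59SNEq.card_sylow_eq K s hs]
  exact H59SNPart.rpart s r hsr T (H59SNNS.normal_sylow K r hK T)

end Cfsg.Agent.Lib.H59SNCore
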