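import Mathlib

set_option autoImplicit false
set_option linter.unusedSectionVars false
set_option linter.unusedVariables false

namespace Cfsg.Agent.Lib.H59SNCyc

open Subgroup

theorem card_of_normalizes {Ω : Type*} [Fintype Ω] [DecidableEq Ω] (hΩ : Fintype.card Ω = 18)
    (x : Equiv.Perm Ω) (hx : orderOf x = 17) (H : Subgroup (Equiv.Perm Ω)) (hxH : x ∈ H)
    (hH : H ≤ normalizer ((zpowers x : Subgroup (Equiv.Perm Ω)) : Set (Equiv.Perm Ω))) :
    ∃ d, d < 17 ∧ Nat.card H = 17 * d := by
  have hp : Nat.Prime 17 := by norm_num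
  have hcyc : x.IsCycle := by
    apply Equiv.Perm.isCycle_of_prime_order'
    · rw [hx]; exact hp
    · rw [hx, hΩ]; norm_num
  have hct : x.cycleType = {17} := by
    rw [hcyc.cycleType, ← hcyc.orderOf, hx]
  have hcent : Nat.card (centralizer ({x} : Set (Equiv.Perm Ω))) = 17 := by
    rw [Equiv.Perm.nat_card_centralizer, hct, hΩ]
    simp
  have hcz : centralizer ((zpowers x : Subgroup (Equiv.Perm Ω)) : Set (Equiv.Perm Ω))
      = centralizer ({x} : Set (Equiv.Perm Ω)) := by
    rw [zpowers_eq_closure, centralizer_closure]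
  set Z := zpowers x with hZ
  let f : H →* MulAut Z := Z.normalizerMonoidHom.comp (inclusion hH)
  have hker : f.ker = (centralizer (Z : Set (Equiv.Perm Ω))).subgroupOf H := by
    ext h
    rw [MonoidHom.mem_ker, MonoidHom.comp_apply, ← MonoidHom.mem_ker, normalizerMonoidHom_ker,
      mem_subgroupOf, mem_subgroupOf]
    rfl
  have hk17 : Nat.card f.ker = 17 := by
    have hdvd : Nat.card f.ker ∣ 17 := by
      rw [hker, ← hcent, ← hcz]
      have : Nat.card ((centralizer (Z : Set (Equiv.Perm Ω))).subgroupOf H)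
          = Nat.card (centralizer (Z : Set (Equiv.Perm Ω)) ⊓ H : Subgroup (Equiv.Perm Ω)) := by
        rw [← inf_subgroupOf_right]
        exact Nat.card_congr (subgroupOfEquivOfLe inf_le_right).toEquiv
      rw [this]
      exact card_dvd_of_le inf_le_left
    rcases (Nat.dvd_prime hp).1 hdvd with h1 | h1
    · exfalso
      rw [card_eq_one] at h1
      have hxk : (⟨x, hxH⟩ : H) ∈ f.ker := by
        rw [hker, mem_subgroupOf, hcz, mem_centralizer_singleton_iff]
      rw [h1, mem_bot] at hxk
      have : x = 1 := congrArg Subtype.val hxk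
      rw [this, orderOf_one] at hx
      norm_num at hx
    · exact h1
  have hZcard : Nat.card Z = 17 := by rw [hZ, Nat.card_zpowers, hx]
  have hr : Nat.card f.range ∣ 16 := by
    have h1 : Nat.card (MulAut Z) = 16 := by
      rw [IsCyclic.card_mulAut, hZcard, Nat.totient_prime hp]
    rw [← h1]
    exact card_subgroup_dvd_card _
  refine ⟨Nat.card f.range, ?_, ?_⟩
  · exact lt_of_le_of_lt (Nat.le_of_dvd (by norm_num) hr) (by norm_num)
  · rw [← f.ker.card_mul_index, index_ker, hk17]

end Cfsg.Agent.Lib.H59SNCyc
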