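import Mathlib
import Cfsg.Agent.Lib.Helper7SL

set_option autoImplicit false
set_option linter.unusedSectionVars false
set_option linter.unusedVariables false

namespace Cfsg.Agent.Lib.H59SNNor

open Subgroup

instance fact17 : Fact (Nat.Prime 17) := ⟨by norm_num⟩

/-- `Cfsg.Agent.Lib.Helper7SL.card_PSL_two_mul_two` with `ZMod.card`. -/
theorem card_L : Nat.card (Matrix.ProjectiveSpecialLinearGroup (Fin 2) (ZMod 17)) = 2448 := by
  have h := Cfsg.Agent.Lib.Helper7SL.card_PSL_two_mul_two (F := ZMod 17)
    (by rw [ZMod.card]; decide)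
  rw [ZMod.card] at h
  omega

/-- `Matrix.ProjectiveSpecialLinearGroup.rank_two_simple`. -/
theorem simple_L : IsSimpleGroup (Matrix.ProjectiveSpecialLinearGroup (Fin 2) (ZMod 17)) := by
  apply Matrix.ProjectiveSpecialLinearGroup.rank_two_simple
  rw [Nat.card_eq_fintype_card, ZMod.card]
  norm_num

/-- `|P| = 17` (`Sylow.card_eq_multiplicity`, `2448 = 17 * 144`).  `n = index (normalizer P) = n_17 ≡ 1 mod 17`,
`n * |N| = 2448` and `17 ∣ |N|`, so `n ∣ 144`, so `n ∈ {1, 18}`; `n = 1` means `P` normal, against simplicity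
(`P ≠ ⊥`, `P ≠ ⊤` by orders). -/
theorem card_normalizer (P : Sylow 17 (Matrix.ProjectiveSpecialLinearGroup (Fin 2) (ZMod 17))) :
    Nat.card (normalizer ((P : Subgroup (Matrix.ProjectiveSpecialLinearGroup (Fin 2) (ZMod 17))) :
      Set (Matrix.ProjectiveSpecialLinearGroup (Fin 2) (ZMod 17)))) = 136 := by
  haveI : Finite (Matrix.ProjectiveSpecialLinearGroup (Fin 2) (ZMod 17)) :=
    Nat.finite_of_card_ne_zero (by rw [card_L]; norm_num)
  haveI := simple_L
  set N := normalizer ((P : Subgroup (Matrix.ProjectiveSpecialLinearGroup (Fin 2) (ZMod 17))) :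
      Set (Matrix.ProjectiveSpecialLinearGroup (Fin 2) (ZMod 17))) with hN
  have hPc : Nat.card (P : Subgroup (Matrix.ProjectiveSpecialLinearGroup (Fin 2) (ZMod 17))) = 17 := by
    rw [Sylow.card_eq_multiplicity, card_L]
    have : (2448 : ℕ).factorization 17 = 1 := by
      have h1 : (2448 : ℕ) = 17 ^ 1 * 144 := by norm_num
      rw [h1, Nat.factorization_mul (by norm_num) (by norm_num), Finsupp.add_apply,
        Nat.Prime.factorization_pow (by norm_num), Finsupp.single_eq_same,
        Nat.factorization_eq_zero_of_not_dvd (by norm_num)]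
    rw [this, pow_one]
  have h1 : Nat.card (Sylow 17 (Matrix.ProjectiveSpecialLinearGroup (Fin 2) (ZMod 17))) = N.index :=
    Sylow.card_eq_index_normalizer P
  have h2 : Nat.card (Sylow 17 (Matrix.ProjectiveSpecialLinearGroup (Fin 2) (ZMod 17))) ≡ 1 [MOD 17] :=
    card_sylow_modEq_one 17 _
  have h3 : Nat.card N * N.index = 2448 := by
    rw [Subgroup.card_mul_index, card_L]
  have h4 : 17 ∣ Nat.card N := by
    have := Subgroup.card_dvd_of_le
      (le_normalizer (H := (P : Subgroup (Matrix.ProjectiveSpecialLinearGroup (Fin 2) (ZMod 17)))))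
    rwa [hPc] at this
  rw [h1] at h2
  obtain ⟨c, hc⟩ := h4
  have h5 : c * N.index = 144 := by
    rw [hc] at h3
    nlinarith
  have h6 : N.index ∣ 144 := Dvd.intro_left c h5
  have h7 : N.index ≠ 1 := by
    intro h
    have hNt : N = ⊤ := Subgroup.index_eq_one.mp h
    have hn : (P : Subgroup (Matrix.ProjectiveSpecialLinearGroup (Fin 2) (ZMod 17))).Normal :=
      Subgroup.normalizer_eq_top_iff.mp hNt
    rcases hn.eq_bot_or_eq_top with h0 | h0
    · rw [h0, Subgroup.card_bot] at hPc
      omega
    · rw [h0, Subgroup.card_top, card_L] at hPc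
      omega
  have h8 : N.index = 18 := by
    have hle : N.index ≤ 144 := Nat.le_of_dvd (by norm_num) h6
    have hmod : N.index % 17 = 1 := h2
    generalize N.index = x at *
    interval_cases x <;> omega
  rw [h8] at h3
  omega

end Cfsg.Agent.Lib.H59SNNor
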