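import Mathlib
import Cfsg.Agent.Lib.H59SNNor
import Cfsg.Agent.S0799

set_option autoImplicit false
set_option linter.unusedSectionVars false
set_option linter.unusedVariables false

namespace Cfsg.Agent.Lib.H59SNDk

open Subgroup

open Cfsg.Agent.Lib.H59SNNor

theorem num_a (n k : ℕ) (hk : k ∣ 9 ∨ k ∣ 8) (hn : n = k ∨ n = 2 * k) :
    (16 ∣ n → n = 16) ∧ (9 ∣ n → n ≤ 18) := by
  have hk' : k ≤ 9 := by
    rcases hk with h | h
    · exact Nat.le_of_dvd (by norm_num) h
    · exact (Nat.le_of_dvd (by norm_num) h).trans (by norm_num)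
  interval_cases k <;> rcases hn with rfl | rfl <;> revert hk <;> decide

theorem num_b (n : ℕ) (hn : n ∣ 136) : (16 ∣ n → n = 16) ∧ (9 ∣ n → n ≤ 18) := by
  constructor
  · intro h
    exact absurd (h.trans hn) (by decide)
  · intro h
    exact absurd (h.trans hn) (by decide)

/-- Dickson (`Cfsg.Agent.S0799.result (F := ZMod 17) (q := 17) (ZMod.card 17) 17 H`). -/
theorem sub_card (H : Subgroup (Matrix.ProjectiveSpecialLinearGroup (Fin 2) (ZMod 17))) (hH : H ≠ ⊤) :
    (16 ∣ Nat.card H → Nat.card H = 16) ∧ (9 ∣ Nat.card H → Nat.card H ≤ 18) := by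
  classical
  have hfin : Finite (Matrix.ProjectiveSpecialLinearGroup (Fin 2) (ZMod 17)) :=
    Nat.finite_of_card_ne_zero (by rw [card_L]; norm_num)
  have hlt : Nat.card H < 2448 := by
    by_contra hcon
    apply hH
    apply Subgroup.eq_top_of_le_card
    rw [card_L]
    omega
  rcases Cfsg.Agent.S0799.result (F := ZMod 17) (q := 17) (ZMod.card 17) 17 H with
    ⟨k, hk, hc⟩ | ⟨P, K, hK, ⟨e⟩⟩ | ⟨⟨e⟩⟩ | ⟨⟨e⟩⟩ | ⟨⟨e⟩⟩ | ⟨K, _, _, m, hKm, hc⟩
  · apply num_a _ k
    · have h1 : (17 + 1) / Nat.gcd 2 (17 - 1) = 9 := by decide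
      have h2 : (17 - 1) / Nat.gcd 2 (17 - 1) = 8 := by decide
      rwa [h1, h2] at hk
    · rcases hc with ⟨_, h⟩ | ⟨⟨e⟩⟩
      · exact Or.inl h
      · right
        rw [Nat.card_congr e.toEquiv, DihedralGroup.nat_card]
  · apply num_b
    rw [Nat.card_congr e.toEquiv, ← card_normalizer P]
    exact Subgroup.card_dvd_of_le hK
  · have h : Nat.card H = 12 := by
      rw [Nat.card_congr e.toEquiv, nat_card_alternatingGroup]
      simp [Nat.factorial]
    rw [h]
    decide
  · have h : Nat.card H = 24 := by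
      rw [Nat.card_congr e.toEquiv, Nat.card_perm]
      simp [Nat.factorial]
    rw [h]
    decide
  · have h : Nat.card H = 60 := by
      rw [Nat.card_congr e.toEquiv, nat_card_alternatingGroup]
      simp [Nat.factorial]
    rw [h]
    decide
  · exfalso
    have hK17 : Fintype.card K = 17 := by
      have hp : Nat.Prime 17 := by norm_num
      have := (Nat.Prime.pow_eq_iff hp).mp hKm
      exact this.1
    have hPSL : Nat.card (Matrix.ProjectiveSpecialLinearGroup (Fin 2) K) = 2448 := by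
      have h := Cfsg.Agent.Lib.Helper7SL.card_PSL_two_mul_two (F := K) (by rw [hK17]; decide)
      rw [hK17] at h
      omega
    rcases hc with ⟨⟨e⟩⟩ | ⟨⟨e⟩⟩
    · rw [Nat.card_congr e.toEquiv, hPSL] at hlt
      exact lt_irrefl _ hlt
    · have hfinH : Finite H := inferInstance
      have hfinP : Finite (Matrix.ProjGenLinGroup (Fin 2) K) := Finite.of_equiv H e.toEquiv
      have hle := Nat.card_le_card_of_injective _
        (Matrix.ProjectiveSpecialLinearGroup.toPGL_injective (n := Fin 2) (R := K))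
      rw [hPSL, ← Nat.card_congr e.toEquiv] at hle
      omega

end Cfsg.Agent.Lib.H59SNDk
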