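import Mathlib
import Cfsg.Agent.Lib.H59SNDk

set_option autoImplicit false
set_option linter.unusedSectionVars false
set_option linter.unusedVariables false

namespace Cfsg.Agent.Lib.H59SNDkS

open Subgroup

open Cfsg.Agent.Lib.H59SNNor

/-- the order of a Sylow subgroup from a factorisation of the group order. -/
theorem card_sylow_of_eq {L : Type*} [Group L] [Finite L] (p : ℕ) [Fact p.Prime] (S : Sylow p L)
    (e m : ℕ) (h : Nat.card L = p ^ e * m) (hm : ¬ p ∣ m) : Nat.card S = p ^ e := by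
  have hp : p.Prime := Fact.out
  obtain ⟨k, hk⟩ := IsPGroup.iff_card.1 S.2
  have h1 := (S : Subgroup L).card_mul_index
  have h2 : ¬ p ∣ (S : Subgroup L).index := S.not_dvd_index
  have hk' : Nat.card (S : Subgroup L) = p ^ k := hk
  rw [hk', h] at h1
  rw [hk]
  apply Nat.dvd_antisymm
  · exact (Nat.Coprime.pow_left k ((Nat.Prime.coprime_iff_not_dvd hp).2 hm)).dvd_of_dvd_mul_right
      (Dvd.intro _ h1)
  · exact (Nat.Coprime.pow_left e ((Nat.Prime.coprime_iff_not_dvd hp).2 h2)).dvd_of_dvd_mul_right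
      (Dvd.intro _ h1.symm)

/-- in a simple group the normalizer of a proper nontrivial subgroup is proper. -/
theorem normalizer_ne_top {L : Type*} [Group L] [Finite L] [IsSimpleGroup L] (S : Subgroup L)
    (h1 : Nat.card S ≠ 1) (h2 : Nat.card S ≠ Nat.card L) : normalizer (S : Set L) ≠ ⊤ := by
  intro h
  have hn : S.Normal := normalizer_eq_top_iff.1 h
  rcases hn.eq_bot_or_eq_top with h0 | h0
  · exact h1 (by rw [h0]; simp)
  · exact h2 (by rw [h0]; simp)

/-- `S` a Sylow 2-subgroup of `L`, `|S| = 16` (`2448 = 16 * 153`), `N = normalizer S ≠ ⊤` by simplicity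
(`H59SNNor.simple_L`; `S ≠ ⊥, ⊤`), `16 ∣ |N|`, so `|N| = 16` by `H59SNDk.sub_card`, and
`n_2 = index N = 2448 / 16 = 153` (`Sylow.card_eq_index_normalizer`). -/
theorem card_sylow_two :
    153 ≤ Nat.card (Sylow 2 (Matrix.ProjectiveSpecialLinearGroup (Fin 2) (ZMod 17))) := by
  have : Fact (Nat.Prime 2) := ⟨Nat.prime_two⟩
  have := simple_L
  obtain ⟨S⟩ : Nonempty (Sylow 2 (Matrix.ProjectiveSpecialLinearGroup (Fin 2) (ZMod 17))) :=
    inferInstance
  have hS : Nat.card S = 2 ^ 4 := card_sylow_of_eq 2 S 4 153 (by rw [card_L]; norm_num) (by norm_num)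
  have hS' : Nat.card (S : Subgroup (Matrix.ProjectiveSpecialLinearGroup (Fin 2) (ZMod 17))) = 16 :=
    hS
  have hN := normalizer_ne_top (S : Subgroup (Matrix.ProjectiveSpecialLinearGroup (Fin 2) (ZMod 17)))
    (by rw [hS']; norm_num) (by rw [hS', card_L]; norm_num)
  have hdvd : 16 ∣ Nat.card (normalizer ((S : Subgroup (Matrix.ProjectiveSpecialLinearGroup (Fin 2)
      (ZMod 17))) : Set (Matrix.ProjectiveSpecialLinearGroup (Fin 2) (ZMod 17)))) := by
    rw [← hS']
    exact Subgroup.card_dvd_of_le le_normalizer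
  have hc := (Cfsg.Agent.Lib.H59SNDk.sub_card _ hN).1 hdvd
  have h1 := (normalizer ((S : Subgroup (Matrix.ProjectiveSpecialLinearGroup (Fin 2)
      (ZMod 17))) : Set (Matrix.ProjectiveSpecialLinearGroup (Fin 2) (ZMod 17)))).card_mul_index
  rw [hc, card_L] at h1
  have hidx : Nat.card (Sylow 2 (Matrix.ProjectiveSpecialLinearGroup (Fin 2) (ZMod 17))) =
      (normalizer ((S : Subgroup (Matrix.ProjectiveSpecialLinearGroup (Fin 2)
      (ZMod 17))) : Set (Matrix.ProjectiveSpecialLinearGroup (Fin 2) (ZMod 17)))).index :=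
    S.card_eq_index_normalizer
  rw [hidx]
  omega

/-- Same with `|R| = 9`, `|N| ≤ 18`, `n_3 = 2448 / |N| ≥ 136`. -/
theorem card_sylow_three :
    136 ≤ Nat.card (Sylow 3 (Matrix.ProjectiveSpecialLinearGroup (Fin 2) (ZMod 17))) := by
  have : Fact (Nat.Prime 3) := ⟨Nat.prime_three⟩
  have := simple_L
  obtain ⟨S⟩ : Nonempty (Sylow 3 (Matrix.ProjectiveSpecialLinearGroup (Fin 2) (ZMod 17))) :=
    inferInstance
  have hS : Nat.card S = 3 ^ 2 := card_sylow_of_eq 3 S 2 272 (by rw [card_L]; norm_num) (by norm_num)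
  have hS' : Nat.card (S : Subgroup (Matrix.ProjectiveSpecialLinearGroup (Fin 2) (ZMod 17))) = 9 :=
    hS
  have hN := normalizer_ne_top (S : Subgroup (Matrix.ProjectiveSpecialLinearGroup (Fin 2) (ZMod 17)))
    (by rw [hS']; norm_num) (by rw [hS', card_L]; norm_num)
  have hdvd : 9 ∣ Nat.card (normalizer ((S : Subgroup (Matrix.ProjectiveSpecialLinearGroup (Fin 2)
      (ZMod 17))) : Set (Matrix.ProjectiveSpecialLinearGroup (Fin 2) (ZMod 17)))) := by
    rw [← hS']
    exact Subgroup.card_dvd_of_le le_normalizer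
  have hc := (Cfsg.Agent.Lib.H59SNDk.sub_card _ hN).2 hdvd
  have h1 := (normalizer ((S : Subgroup (Matrix.ProjectiveSpecialLinearGroup (Fin 2)
      (ZMod 17))) : Set (Matrix.ProjectiveSpecialLinearGroup (Fin 2) (ZMod 17)))).card_mul_index
  rw [card_L] at h1
  have hidx : Nat.card (Sylow 3 (Matrix.ProjectiveSpecialLinearGroup (Fin 2) (ZMod 17))) =
      (normalizer ((S : Subgroup (Matrix.ProjectiveSpecialLinearGroup (Fin 2)
      (ZMod 17))) : Set (Matrix.ProjectiveSpecialLinearGroup (Fin 2) (ZMod 17)))).index :=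
    S.card_eq_index_normalizer
  rw [hidx]
  have h2 := Nat.mul_le_mul_right (normalizer ((S : Subgroup (Matrix.ProjectiveSpecialLinearGroup
    (Fin 2) (ZMod 17))) : Set (Matrix.ProjectiveSpecialLinearGroup (Fin 2) (ZMod 17)))).index hc
  rw [h1] at h2
  omega

end Cfsg.Agent.Lib.H59SNDkS
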