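import Mathlib

set_option autoImplicit false
set_option linter.unusedSectionVars false
set_option linter.unusedVariables false

namespace Cfsg.Agent.Lib.H59SNImg

open Subgroup

/-- The image of a Sylow 17-subgroup `P` in `Sym(Syl_17 G)` is generated by an element of order 17. -/
theorem exists_gen {G : Type*} [Group G] [Finite G] (h18 : Nat.card (Sylow 17 G) = 18)
    (P : Sylow 17 G) :
    ∃ y ∈ (P : Subgroup G), orderOf (MulAction.toPermHom G (Sylow 17 G) y) = 17 ∧
      (P : Subgroup G).map (MulAction.toPermHom G (Sylow 17 G))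
        = zpowers (MulAction.toPermHom G (Sylow 17 G) y) := by
  classical
  have hp : Fact (Nat.Prime 17) := ⟨by norm_num⟩
  obtain ⟨y, hyP, hy⟩ : ∃ y ∈ (P : Subgroup G), MulAction.toPermHom G (Sylow 17 G) y ≠ 1 := by
    by_contra hcon
    push Not at hcon
    have hall : ∀ Q : Sylow 17 G, Q = P := by
      intro Q
      have h1 : (P : Subgroup G) ≤ normalizer (Q : Set G) := by
        intro y hy
        apply Sylow.smul_eq_iff_mem_normalizer.1
        have h2 := congrArg (fun f : Equiv.Perm (Sylow 17 G) => f Q) (hcon y hy)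
        simpa using h2
      have h3 := IsPGroup.inf_normalizer_sylow P.2 Q
      rw [inf_eq_left.2 h1] at h3
      have h4 : (P : Subgroup G) ≤ Q := by
        rw [h3]
        exact inf_le_right
      exact Sylow.ext (P.3 Q.2 h4)
    have h5 : Nat.card (Sylow 17 G) ≤ 1 := by
      rw [Finite.card_le_one_iff_subsingleton]
      exact ⟨fun a b => (hall a).trans (hall b).symm⟩
    omega
  have hmem : MulAction.toPermHom G (Sylow 17 G) y ∈
      (P : Subgroup G).map (MulAction.toPermHom G (Sylow 17 G)) := Subgroup.mem_map_of_mem _ hyP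
  obtain ⟨k, hk⟩ := (IsPGroup.iff_card (p := 17)).1
    (P.2.map (MulAction.toPermHom G (Sylow 17 G)))
  have hdvd : 17 ^ k ∣ Nat.factorial 18 := by
    rw [← hk, ← h18, ← Nat.card_perm]
    exact Subgroup.card_subgroup_dvd_card _
  have hk1 : k ≤ 1 := by
    by_contra hlt
    have h2 : 17 ^ 2 ∣ Nat.factorial 18 := (pow_dvd_pow 17 (by omega)).trans hdvd
    norm_num [Nat.factorial] at h2
  have hk0 : k ≠ 0 := by
    rintro rfl
    rw [pow_zero, Subgroup.card_eq_one] at hk
    rw [hk, Subgroup.mem_bot] at hmem
    exact hy hmem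
  have hk' : k = 1 := by omega
  rw [hk', pow_one] at hk
  have hle : zpowers (MulAction.toPermHom G (Sylow 17 G) y) ≤
      (P : Subgroup G).map (MulAction.toPermHom G (Sylow 17 G)) := by
    rw [zpowers_le]
    exact hmem
  have hord : orderOf (MulAction.toPermHom G (Sylow 17 G) y) = 17 := by
    have h1 : orderOf (MulAction.toPermHom G (Sylow 17 G) y) ∣ 17 := by
      have h0 := Subgroup.card_dvd_of_le hle
      rwa [hk, Nat.card_zpowers] at h0
    rcases (Nat.dvd_prime hp.out).1 h1 with h2 | h2
    · exact absurd (orderOf_eq_one_iff.1 h2) hy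
    · exact h2
  refine ⟨y, hyP, hord, ?_⟩
  symm
  apply Subgroup.eq_of_le_of_card_ge hle
  rw [hk, Nat.card_zpowers, hord]

end Cfsg.Agent.Lib.H59SNImg
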