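import Mathlib

set_option autoImplicit false
set_option linter.unusedSectionVars false
set_option linter.unusedVariables false

namespace Cfsg.Agent.Lib.H59SNNum

open Subgroup

/-- Numerics.  For a prime `r ∣ |G|` the Sylow number `n_r` lies in `{18,136,153}` (by `hNS`) and
`n_r ≡ 1 [MOD r]` (`card_sylow_modEq_one`), so `r ∣ 17`, `r ∣ 135` or `r ∣ 152`, i.e.
`r ∈ {17} ∪ {3,5} ∪ {2,19}`.  `18 ∈ NS` gives a prime `r` with `n_r = 18`, so `r = 17`.
`n_17 ∣ |G|` (`Sylow.card_dvd_index` / `Sylow.card_eq_index_normalizer` + `Subgroup.index_dvd_card`) so `2, 3 ∣ |G|`;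
then `n_2` is odd so `153`; `n_3 ≡ 1 mod 3` so `136`; same for `5` (`136`) and `19` (`153`). -/
theorem num {G : Type*} [Group G] [Finite G]
    (hNS : {c : ℕ | ∃ r : ℕ, r.Prime ∧ r ∣ Nat.card G ∧ c = Nat.card (Sylow r G)}
      = ({18, 136, 153} : Set ℕ)) :
    Nat.card (Sylow 17 G) = 18 ∧ Nat.card (Sylow 2 G) = 153 ∧ Nat.card (Sylow 3 G) = 136 ∧
    (5 ∣ Nat.card G → Nat.card (Sylow 5 G) = 136) ∧
    (19 ∣ Nat.card G → Nat.card (Sylow 19 G) = 153) ∧
    (∀ r : ℕ, r.Prime → r ∣ Nat.card G → r = 2 ∨ r = 3 ∨ r = 5 ∨ r = 17 ∨ r = 19) := by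
  have hmem : ∀ r : ℕ, r.Prime → r ∣ Nat.card G →
      (Nat.card (Sylow r G) = 18 ∨ Nat.card (Sylow r G) = 136 ∨ Nat.card (Sylow r G) = 153) := by
    intro r hr hd
    have : Nat.card (Sylow r G) ∈ ({18, 136, 153} : Set ℕ) := by
      rw [← hNS]; exact ⟨r, hr, hd, rfl⟩
    simpa using this
  have hmod : ∀ r : ℕ, r.Prime → Nat.card (Sylow r G) ≡ 1 [MOD r] := by
    intro r hr
    have : Fact r.Prime := ⟨hr⟩
    exact card_sylow_modEq_one r G
  have p2 : Nat.Prime 2 := by norm_num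
  have p3 : Nat.Prime 3 := by norm_num
  have p5 : Nat.Prime 5 := by norm_num
  have p17 : Nat.Prime 17 := by norm_num
  have p19 : Nat.Prime 19 := by norm_num
  have h18 : ∀ r : ℕ, r.Prime → Nat.card (Sylow r G) = 18 → r = 17 := by
    intro r hr h
    have h1 := hmod r hr
    rw [h] at h1
    have h2 : r ∣ 18 - 1 := (Nat.modEq_iff_dvd' (by norm_num)).mp h1.symm
    exact (Nat.prime_dvd_prime_iff_eq hr p17).mp (by simpa using h2)
  have h136 : ∀ r : ℕ, r.Prime → Nat.card (Sylow r G) = 136 → r = 3 ∨ r = 5 := by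
    intro r hr h
    have h1 := hmod r hr
    rw [h] at h1
    have h2 : r ∣ 136 - 1 := (Nat.modEq_iff_dvd' (by norm_num)).mp h1.symm
    have h3 : r ∣ 3 * (3 * (3 * 5)) := by simpa using h2
    rcases hr.dvd_mul.mp h3 with h4 | h4
    · exact Or.inl ((Nat.prime_dvd_prime_iff_eq hr p3).mp h4)
    rcases hr.dvd_mul.mp h4 with h4 | h4
    · exact Or.inl ((Nat.prime_dvd_prime_iff_eq hr p3).mp h4)
    rcases hr.dvd_mul.mp h4 with h4 | h4
    · exact Or.inl ((Nat.prime_dvd_prime_iff_eq hr p3).mp h4)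
    · exact Or.inr ((Nat.prime_dvd_prime_iff_eq hr p5).mp h4)
  have h153 : ∀ r : ℕ, r.Prime → Nat.card (Sylow r G) = 153 → r = 2 ∨ r = 19 := by
    intro r hr h
    have h1 := hmod r hr
    rw [h] at h1
    have h2 : r ∣ 153 - 1 := (Nat.modEq_iff_dvd' (by norm_num)).mp h1.symm
    have h3 : r ∣ 2 * (2 * (2 * 19)) := by simpa using h2
    rcases hr.dvd_mul.mp h3 with h4 | h4
    · exact Or.inl ((Nat.prime_dvd_prime_iff_eq hr p2).mp h4)
    rcases hr.dvd_mul.mp h4 with h4 | h4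
    · exact Or.inl ((Nat.prime_dvd_prime_iff_eq hr p2).mp h4)
    rcases hr.dvd_mul.mp h4 with h4 | h4
    · exact Or.inl ((Nat.prime_dvd_prime_iff_eq hr p2).mp h4)
    · exact Or.inr ((Nat.prime_dvd_prime_iff_eq hr p19).mp h4)
  -- `n_17 = 18`
  have h17 : Nat.card (Sylow 17 G) = 18 := by
    have : (18 : ℕ) ∈ {c : ℕ | ∃ r : ℕ, r.Prime ∧ r ∣ Nat.card G ∧ c = Nat.card (Sylow r G)} := by
      rw [hNS]; simp
    obtain ⟨r, hr, hd, hc⟩ := this
    have := h18 r hr hc.symm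
    subst this
    exact hc.symm
  have hdvd : 18 ∣ Nat.card G := by
    have : Fact (Nat.Prime 17) := ⟨p17⟩
    obtain ⟨P⟩ : Nonempty (Sylow 17 G) := inferInstance
    rw [← h17]
    exact (Sylow.card_dvd_index P).trans (Subgroup.index_dvd_card _)
  have d2 : 2 ∣ Nat.card G := Dvd.dvd.trans (by norm_num) hdvd
  have d3 : 3 ∣ Nat.card G := Dvd.dvd.trans (by norm_num) hdvd
  refine ⟨h17, ?_, ?_, ?_, ?_, ?_⟩
  · rcases hmem 2 p2 d2 with h | h | h
    · have := h18 2 p2 h; omega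
    · have := h136 2 p2 h; omega
    · exact h
  · rcases hmem 3 p3 d3 with h | h | h
    · have := h18 3 p3 h; omega
    · exact h
    · have := h153 3 p3 h; omega
  · intro d5
    rcases hmem 5 p5 d5 with h | h | h
    · have := h18 5 p5 h; omega
    · exact h
    · have := h153 5 p5 h; omega
  · intro d19
    rcases hmem 19 p19 d19 with h | h | h
    · have := h18 19 p19 h; omega
    · have := h136 19 p19 h; omega
    · exact h
  · intro r hr hd
    rcases hmem r hr hd with h | h | h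
    · have := h18 r hr h; omega
    · have := h136 r hr h; omega
    · have := h153 r hr h; omega

end Cfsg.Agent.Lib.H59SNNum
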