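import Mathlib

set_option autoImplicit false
set_option linter.unusedSectionVars false
set_option linter.unusedVariables false

namespace Cfsg.Agent.Lib.H59SNQuot

open Subgroup

/-- If `φ : G → H` is onto and `n_r(G) ≤ n_r(H)` then `ker φ` normalizes every Sylow `r`-subgroup.
The map `Sylow r G → Sylow r H`, `R ↦ R.mapSurjective hφ` is onto (all Sylow subgroups of `H` are conjugate,
`MulAction.exists_smul_eq`, and `φ` is onto; `(g • R).map φ = φ g • R.map φ`), so by the cardinality
hypothesis it is injective.  For `k ∈ ker φ`, `k • R` and `R` have the same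
image, so `k • R = R`, i.e. `k ∈ normalizer R` (`Sylow.smul_eq_iff_mem_normalizer`). -/
theorem ker_le_normalizer {G H : Type*} [Group G] [Group H] [Finite G] (φ : G →* H)
    (hφ : Function.Surjective φ) (r : ℕ) [Fact r.Prime]
    (h : Nat.card (Sylow r G) ≤ Nat.card (Sylow r H)) (R : Sylow r G) :
    φ.ker ≤ normalizer ((R : Subgroup G) : Set G) := by
  classical
  have : Finite H := Finite.of_surjective φ hφ
  set f : Sylow r G → Sylow r H := fun R => R.mapSurjective hφ with hf
  have hfcoe : ∀ R : Sylow r G, ((f R : Sylow r H) : Subgroup H) = (R : Subgroup G).map φ :=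
    fun R => rfl
  have hsmul : ∀ (g : G) (R : Sylow r G), f (g • R) = φ g • f R := by
    intro g R
    apply Sylow.ext
    rw [hfcoe, Sylow.coe_subgroup_smul, Sylow.coe_subgroup_smul, hfcoe]
    ext y
    simp only [Subgroup.mem_map, Subgroup.mem_pointwise_smul_iff_inv_smul_mem,
      MulAut.smul_def, MulAut.conj_inv_apply]
    constructor
    · rintro ⟨x, hx, rfl⟩
      exact ⟨g⁻¹ * x * g, by simpa using hx, by simp⟩
    · rintro ⟨x, hx, hxy⟩
      refine ⟨g * x * g⁻¹, by simpa [mul_assoc] using hx, ?_⟩
      rw [map_mul, map_mul, hxy, map_inv]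
      group
  have hsurj : Function.Surjective f := by
    intro Q
    obtain ⟨y, hy⟩ := MulAction.exists_smul_eq H (f R) Q
    obtain ⟨g, rfl⟩ := hφ y
    exact ⟨g • R, by rw [hsmul, hy]⟩
  have hinj : Function.Injective f := by
    have hcard : Nat.card (Sylow r G) = Nat.card (Sylow r H) :=
      le_antisymm h (Nat.card_le_card_of_surjective f hsurj)
    have hbij := (Nat.bijective_iff_surjective_and_card f).mpr ⟨hsurj, hcard⟩
    exact hbij.1
  intro k hk
  refine Sylow.smul_eq_iff_mem_normalizer.mp ?_
  apply hinj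
  rw [hsmul, MonoidHom.mem_ker.mp hk, one_smul]

end Cfsg.Agent.Lib.H59SNQuot
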