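import Mathlib
import Cfsg.Agent.Lib.H59SNCyc
import Cfsg.Agent.Lib.H59SNImg

set_option autoImplicit false
set_option linter.unusedSectionVars false
set_option linter.unusedVariables false

namespace Cfsg.Agent.Lib.H59SNRange

open Subgroup

/-- `φ : G → Sym(Syl_17 G)`, `N = N_G(P) = stabilizer of the point P` (`Sylow.stabilizer_eq_normalizer`),
`|G : N| = 18` (`Sylow.card_eq_index_normalizer`), `ker φ ≤ N`, hence `|range φ| = 18 * |N.map φ|`
(e.g. `|G| = |ker| * |range|`, `|N| = |ker| * |N.map φ|`, `|G| = 18 * |N|`).  `N.map φ` normalizes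
`P.map φ = zpowers (φ y)` (`H59SNImg.exists_gen`) and contains `φ y`; apply `H59SNCyc.card_of_normalizes`
(with `Fintype.card (Sylow 17 G) = 18`, classical instances). -/
theorem card_range {G : Type*} [Group G] [Finite G] (h18 : Nat.card (Sylow 17 G) = 18) :
    ∃ d, d < 17 ∧ Nat.card (MulAction.toPermHom G (Sylow 17 G)).range = (17 + 1) * 17 * d := by
  classical
  have : Fact (Nat.Prime 17) := ⟨by norm_num⟩
  obtain ⟨P⟩ : Nonempty (Sylow 17 G) := inferInstance
  set φ := MulAction.toPermHom G (Sylow 17 G) with hφ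
  set N : Subgroup G := normalizer ((P : Subgroup G) : Set G) with hN
  have hidx : N.index = 18 := by rw [← h18]; exact (P.card_eq_index_normalizer).symm
  have hker : φ.ker ≤ N := by
    intro g hg
    have h1 : φ g = 1 := hg
    have h2 : g • P = P := by
      have := congrArg (fun σ : Equiv.Perm (Sylow 17 G) => σ P) h1
      simpa [hφ] using this
    exact Sylow.smul_eq_iff_mem_normalizer.1 h2
  have hcard : Nat.card φ.range = 18 * Nat.card (N.map φ) := by
    have h1 := (N.map φ).card_mul_index
    have h2 := φ.range.card_mul_index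
    rw [Subgroup.index_map, sup_eq_left.2 hker, hidx] at h1
    have h3 : φ.range.index ≠ 0 := Subgroup.index_ne_zero_of_finite
    have h4 : Nat.card φ.range * φ.range.index = (18 * Nat.card (N.map φ)) * φ.range.index := by
      rw [h2, ← h1]; ring
    exact Nat.eq_of_mul_eq_mul_right (Nat.pos_of_ne_zero h3) h4
  obtain ⟨y, hyP, hy17, hmap⟩ := Cfsg.Agent.Lib.H59SNImg.exists_gen h18 P
  have := Fintype.ofFinite (Sylow 17 G)
  have hΩ : Fintype.card (Sylow 17 G) = 18 := by rw [← Nat.card_eq_fintype_card]; exact h18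
  obtain ⟨d, hd, hcd⟩ := Cfsg.Agent.Lib.H59SNCyc.card_of_normalizes hΩ (φ y) hy17 (N.map φ)
    ⟨y, le_normalizer hyP, rfl⟩ (by
      rw [← hmap]
      exact le_normalizer_map φ)
  refine ⟨d, hd, ?_⟩
  rw [hcard, hcd]
  ring

end Cfsg.Agent.Lib.H59SNRange
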