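import Mathlib
import Cfsg.Agent.Lib.Helper6Transport

set_option autoImplicit false
set_option linter.unusedSectionVars false
set_option linter.unusedVariables false

namespace Cfsg.Agent.Lib.H59SNTr

open Subgroup

/-- Transport along a ring isomorphism `ZMod 17 ≃+* F` (`Helper6Transport.nonempty_pslEquiv`). -/
theorem psl_equiv {F : Type*} [Field F] [Fintype F] (hF : Fintype.card F = 17) :
    Nonempty (Matrix.ProjectiveSpecialLinearGroup (Fin 2) (ZMod 17) ≃*
      Matrix.ProjectiveSpecialLinearGroup (Fin 2) F) := by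
  haveI : Fact (Nat.Prime 17) := ⟨by norm_num⟩
  exact Cfsg.Agent.Lib.Helper6Transport.nonempty_pslEquiv (by rw [ZMod.card, hF])

/-- `Matrix.ProjGenLinGroup n R` is by definition `GL n R ⧸ center (GL n R)`. -/
theorem pgl_equiv {F : Type*} [Field F] [Fintype F] (hF : Fintype.card F = 17) :
    Nonempty (Matrix.ProjGenLinGroup (Fin 2) (ZMod 17) ≃*
      (GL (Fin 2) F ⧸ Subgroup.center (GL (Fin 2) F))) := by
  haveI : Fact (Nat.Prime 17) := ⟨by norm_num⟩
  have e : ZMod 17 ≃+* F := FiniteField.ringEquivOfCardEq (by rw [ZMod.card, hF])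
  let E : GL (Fin 2) (ZMod 17) ≃* GL (Fin 2) F :=
    Units.mapEquiv (RingEquiv.mapMatrix e (m := Fin 2)).toMulEquiv
  exact ⟨(QuotientGroup.congr (Subgroup.center (GL (Fin 2) (ZMod 17))) (Subgroup.center (GL (Fin 2) F)) E
    (Cfsg.Agent.Lib.Helper6Transport.map_center_of_mulEquiv E) :
      (GL (Fin 2) (ZMod 17) ⧸ Subgroup.center (GL (Fin 2) (ZMod 17))) ≃* _)⟩

end Cfsg.Agent.Lib.H59SNTr
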