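import Cfsg.Agent.Lib.H61CmDefs


set_option autoImplicit false

namespace Cfsg.Agent.Lib.H61CmCen

open Cfsg.Agent.Lib.H61CmDefs

variable {G : Type*} [Group G]

/-- **Cen** (PURE MATHLIB). -/
theorem cen [Finite G] (q : ℕ) [Fact q.Prime] (Q Q0 : Subgroup G) (hQ : IsPGroup q Q) (h0 : Q0 ≤ Q) (hn : Nz Q Q0)
    (hne : Q0 ≠ Q) : ∃ x ∈ Q, x ∉ Q0 ∧ x ^ q ∈ Q0 ∧ ∀ g ∈ Q, g * x * g⁻¹ * x⁻¹ ∈ Q0 := by
  have hnorm : (Q0.subgroupOf Q).Normal := by
    constructor
    intro n hn' g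
    rw [Subgroup.mem_subgroupOf] at hn' ⊢
    exact hn g g.2 n hn'
  set N := Q0.subgroupOf Q with hN
  have hPq : IsPGroup q (Q ⧸ N) := hQ.to_quotient N
  have hnt : Nontrivial (Q ⧸ N) := by
    rw [QuotientGroup.nontrivial_iff]
    intro htop
    apply hne
    apply le_antisymm h0
    rw [← Subgroup.subgroupOf_eq_top]; exact htop
  have hcnt : Nontrivial (Subgroup.center (Q ⧸ N)) := hPq.center_nontrivial
  have hcp : IsPGroup q (Subgroup.center (Q ⧸ N)) := hPq.to_subgroup _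
  obtain ⟨n, hn'⟩ := IsPGroup.iff_card.1 hcp
  have hdvd : q ∣ Nat.card (Subgroup.center (Q ⧸ N)) := by
    rw [hn']
    rcases n with _ | n
    · exfalso
      rw [pow_zero] at hn'
      have := Finite.one_lt_card (α := Subgroup.center (Q ⧸ N))
      omega
    · exact dvd_pow_self q (Nat.succ_ne_zero n)
  obtain ⟨c, hc⟩ := exists_prime_orderOf_dvd_card' q hdvd
  obtain ⟨x, hx⟩ := QuotientGroup.mk'_surjective N (c : Q ⧸ N)
  have hmem : ∀ z : Q, QuotientGroup.mk' N z = 1 ↔ (z : G) ∈ Q0 := by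
    intro z
    rw [QuotientGroup.mk'_apply, QuotientGroup.eq_one_iff, hN, Subgroup.mem_subgroupOf]
  have hc1 : c ≠ 1 := by
    intro h
    rw [h, orderOf_one] at hc
    exact (Fact.out : q.Prime).one_lt.ne hc
  have hcq : c ^ q = 1 := by rw [← hc]; exact pow_orderOf_eq_one c
  refine ⟨x, x.2, ?_, ?_, ?_⟩
  · intro hx0
    apply hc1
    apply Subtype.ext
    rw [← hx]
    exact (hmem x).2 hx0
  · have : QuotientGroup.mk' N (x ^ q) = 1 := by
      rw [map_pow, hx]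
      exact congrArg Subtype.val hcq
    exact (hmem _).1 this
  · intro g hg
    have hcen := Subgroup.mem_center_iff.1 c.2 (QuotientGroup.mk' N ⟨g, hg⟩)
    have : QuotientGroup.mk' N (⟨g, hg⟩ * x * (⟨g, hg⟩ : Q)⁻¹ * x⁻¹) = 1 := by
      rw [map_mul, map_mul, map_mul, map_inv, map_inv, hx, hcen]
      group
    exact (hmem _).1 this

end Cfsg.Agent.Lib.H61CmCen
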