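import Cfsg.Agent.Lib.H61CmDefs


set_option autoImplicit false

namespace Cfsg.Agent.Lib.H61CmComm

open Cfsg.Agent.Lib.H61CmDefs

variable {G : Type*} [Group G]

/-- **Comm** (PURE MATHLIB).  `Q1 := ⁅Q, Q0⁆` (or the closure of the `g l g⁻¹ l⁻¹`).  `Q1 ≤ Q0` by `hn`; normalized by `Q`.  `Q1 ≠ Q0`: `Q` is nilpotent; if `⁅Q, Q0⁆ = Q0` then by induction
`Q0 ≤ lowerCentralSeries`-terms of `Q`, which reach `⊥`.  ALTERNATIVE (no commutators): `Q` acts on the set of maximal subgroups / use a central element: by the class equation `Q0` contains `z ≠ 1` central in `Q`... then induct on `card Q0` in `G ⧸ ...`;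
the lower central series argument is shorter: in `↥Q`, `A := Q0.subgroupOf Q`, `⁅⊤, A⁆ = A → A ≤ lowerCentralSeries ↥Q n` for all `n` (`Subgroup.commutator_mono`), `IsPGroup.isNilpotent`, `Group.nilpotent_iff_lowerCentralSeries`. -/
theorem comm [Finite G] (q : ℕ) [Fact q.Prime] (Q Q0 : Subgroup G) (hQ : IsPGroup q Q) (h0 : Q0 ≤ Q) (hn : Nz Q Q0)
    (hne : Q0 ≠ ⊥) : ∃ Q1 : Subgroup G, Q1 < Q0 ∧ Nz Q Q1 ∧ ∀ g ∈ Q, ∀ l ∈ Q0, g * l * g⁻¹ * l⁻¹ ∈ Q1 := by
  have hle : ⁅Q, Q0⁆ ≤ Q0 := by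
    rw [Subgroup.commutator_le]
    intro g hg l hl
    rw [commutatorElement_def]
    exact Q0.mul_mem (hn g hg l hl) (Q0.inv_mem hl)
  refine ⟨⁅Q, Q0⁆, lt_of_le_of_ne hle ?_, ?_, ?_⟩
  · intro heq
    have hnil : Group.IsNilpotent ↥Q := hQ.isNilpotent
    obtain ⟨n, hn0⟩ := (Subgroup.isNilpotent_iff_lowerCentralSeries Q).1 hnil
    have key : ∀ n, Q0 ≤ Q.lowerCentralSeries n := by
      intro n
      induction n with
      | zero => exact h0
      | succ n ih =>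
        rw [Subgroup.lowerCentralSeries_succ]
        calc Q0 = ⁅Q, Q0⁆ := heq.symm
          _ = ⁅Q0, Q⁆ := Subgroup.commutator_comm _ _
          _ ≤ ⁅Q.lowerCentralSeries n, Q⁆ := Subgroup.commutator_mono ih le_rfl
    have := key n
    rw [hn0] at this
    exact hne (le_bot_iff.1 this)
  · intro a ha b hb
    have hmap : (⁅Q, Q0⁆).map (MulAut.conj a).toMonoidHom ≤ ⁅Q, Q0⁆ := by
      rw [Subgroup.map_commutator]
      apply Subgroup.commutator_mono
      · rintro _ ⟨x, hx, rfl⟩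
        exact Q.mul_mem (Q.mul_mem ha hx) (Q.inv_mem ha)
      · rintro _ ⟨x, hx, rfl⟩
        exact hn a ha x hx
    exact hmap ⟨b, hb, rfl⟩
  · intro g hg l hl
    exact Subgroup.commutator_mem_commutator hg hl

end Cfsg.Agent.Lib.H61CmComm
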