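import Cfsg.Agent.Lib.H61CmDefs


set_option autoImplicit false

namespace Cfsg.Agent.Lib.H61CmCount

open Cfsg.Agent.Lib.H61CmDefs

variable {G : Type*} [Group G]

/-- **Count** (PURE MATHLIB). -/
theorem count [Finite G] (Q Q1 : Subgroup G) (x : G) (h : ∀ g ∈ Q, g * x * g⁻¹ * x⁻¹ ∈ Q1) :
    Nat.card Q ≤ Nat.card Q1 * Nat.card ↥(Q ⊓ Subgroup.centralizer ({x} : Set G)) := by
  classical
  let f : Q → Q1 := fun g => ⟨g * x * g⁻¹ * x⁻¹, h g g.2⟩
  have key : ∀ g g' : Q, f g = f g' →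
      ((g' : G)⁻¹ * g : G) ∈ Q ⊓ Subgroup.centralizer ({x} : Set G) := by
    intro g g' hgg
    refine Subgroup.mem_inf.2 ⟨Q.mul_mem (Q.inv_mem g'.2) g.2, ?_⟩
    have h1 : (g : G) * x * (g : G)⁻¹ * x⁻¹ = (g' : G) * x * (g' : G)⁻¹ * x⁻¹ :=
      congrArg Subtype.val hgg
    have h2 : (g : G) * x * (g : G)⁻¹ = (g' : G) * x * (g' : G)⁻¹ := mul_right_cancel h1
    rw [Subgroup.mem_centralizer_iff]
    intro y hy
    rw [Set.mem_singleton_iff] at hy
    subst hy
    calc y * ((g' : G)⁻¹ * g) = (g' : G)⁻¹ * ((g' : G) * y * (g' : G)⁻¹) * g := by group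
      _ = (g' : G)⁻¹ * ((g : G) * y * (g : G)⁻¹) * g := by rw [h2]
      _ = (g' : G)⁻¹ * g * y := by group
  let rep : Q1 → Q := fun c => if hc : ∃ g, f g = c then hc.choose else 1
  have hrep : ∀ g, f (rep (f g)) = f g := by
    intro g
    have hc : ∃ g', f g' = f g := ⟨g, rfl⟩
    have e : rep (f g) = hc.choose := dif_pos hc
    rw [e]
    exact hc.choose_spec
  let F : Q → Q1 × ↥(Q ⊓ Subgroup.centralizer ({x} : Set G)) := fun g =>
    (f g, ⟨((rep (f g) : Q) : G)⁻¹ * g, key _ _ (hrep g).symm⟩)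
  have hinj : Function.Injective F := by
    intro g g' hgg
    have h1 : f g = f g' := congrArg Prod.fst hgg
    have h2 : ((rep (f g) : Q) : G)⁻¹ * g = ((rep (f g') : Q) : G)⁻¹ * g' :=
      congrArg (fun z => ((z.2 : ↥(Q ⊓ Subgroup.centralizer ({x} : Set G))) : G)) hgg
    rw [h1] at h2
    exact Subtype.ext (mul_left_cancel h2)
  have := Nat.card_le_card_of_injective F hinj
  rwa [Nat.card_prod] at this

end Cfsg.Agent.Lib.H61CmCount
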