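import Cfsg.Agent.Lib.H61CmDefs
import Cfsg.Agent.Lib.Helper21Action


set_option autoImplicit false

namespace Cfsg.Agent.Lib.H61CmF1

open Cfsg.Agent.Lib.H61CmDefs

variable {G : Type*} [Group G]

/-- **F1**.  `D := {g | g * x * g⁻¹ * x⁻¹ ∈ K}` is a subgroup containing `K` and `C_G(x)` (it is the preimage of `C_{G/K}(xK)`:
`D = (Subgroup.centralizer {(x : G ⧸ K)}).comap (QuotientGroup.mk' K)`).  `D` acts by conjugation on the coset `x K` (a set with `card K` elements),
transitively by `hc`, with stabilizer `C_G(x)`: `card D = card K * card C_G(x)` (orbit-stabilizer, or: the map `D → K`, `g ↦ x⁻¹ * (g * x * g⁻¹)` is onto with fibres the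
left cosets of `C_G(x)`).  As `K ≤ D`: `card D = card K * K.relIndex D` and `K.relIndex D ∣ K.index` (`Subgroup.relIndex_dvd_index_of_normal`).  Cancel `card K`. -/
theorem f1 [Finite G] (K : Subgroup G) [K.Normal] (hc : Cam K) (x : G) (hx : x ∉ K) :
    Nat.card ↥(Subgroup.centralizer ({x} : Set G)) ∣ K.index := by
  have h1 := Cfsg.Agent.Lib.Helper21Action.card_conj_mul_card_centralizer x
  have h2 := Cfsg.Agent.Lib.Helper21Action.card_conj_mul_card_centralizer (x : G ⧸ K)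
  -- the class of `x` is the preimage of the class of its image
  have hset : {y : G | IsConj x y} = QuotientGroup.mk ⁻¹' {w : G ⧸ K | IsConj (x : G ⧸ K) w} := by
    ext y
    constructor
    · intro hy
      obtain ⟨g, hg⟩ := isConj_iff.1 hy
      show IsConj (x : G ⧸ K) (y : G ⧸ K)
      rw [isConj_iff]
      refine ⟨(g : G ⧸ K), ?_⟩
      rw [← hg]; rfl
    · intro hy
      have hy' : IsConj (x : G ⧸ K) (y : G ⧸ K) := hy
      obtain ⟨gb, hg⟩ := isConj_iff.1 hy'
      obtain ⟨g, rfl⟩ := QuotientGroup.mk_surjective gb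
      have h3 : ((g * x * g⁻¹ : G) : G ⧸ K) = (y : G ⧸ K) := hg
      rw [QuotientGroup.eq] at h3
      -- `(g x g⁻¹)⁻¹ y ∈ K`
      have h4 : g⁻¹ * ((g * x * g⁻¹)⁻¹ * y) * g⁻¹⁻¹ ∈ K := Subgroup.Normal.conj_mem inferInstance _ h3 _
      obtain ⟨c, hcx⟩ := hc x hx _ h4
      show IsConj x y
      rw [isConj_iff]
      refine ⟨g * c, ?_⟩
      calc g * c * x * (g * c)⁻¹ = g * (c * x * c⁻¹) * g⁻¹ := by group
        _ = g * (x * (g⁻¹ * ((g * x * g⁻¹)⁻¹ * y) * g⁻¹⁻¹)) * g⁻¹ := by rw [hcx]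
        _ = y := by group
  have h5 : Nat.card {y : G // IsConj x y} = Nat.card K * Nat.card {w : G ⧸ K // IsConj (x : G ⧸ K) w} := by
    have e1 : Nat.card {y : G // IsConj x y} = Nat.card ({y : G | IsConj x y} : Set G) := rfl
    rw [e1, hset, Nat.card_congr (QuotientGroup.preimageMkEquivSubgroupProdSet K _), Nat.card_prod]
    rfl
  have h6 : Nat.card G = Nat.card (G ⧸ K) * Nat.card K := Subgroup.card_eq_card_quotient_mul_card_subgroup K
  have hpos1 : 0 < Nat.card K := Nat.card_pos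
  have hpos2 : 0 < Nat.card {w : G ⧸ K // IsConj (x : G ⧸ K) w} := by
    haveI : Nonempty {w : G ⧸ K // IsConj (x : G ⧸ K) w} := ⟨⟨_, IsConj.refl _⟩⟩
    exact Nat.card_pos
  have h7 : Nat.card ↥(Subgroup.centralizer ({x} : Set G)) =
      Nat.card ↥(Subgroup.centralizer ({(x : G ⧸ K)} : Set (G ⧸ K))) := by
    rw [h5, h6, ← h2] at h1
    have h8 : (Nat.card K * Nat.card {w : G ⧸ K // IsConj (x : G ⧸ K) w}) *
        Nat.card ↥(Subgroup.centralizer ({x} : Set G)) =
        (Nat.card K * Nat.card {w : G ⧸ K // IsConj (x : G ⧸ K) w}) *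
        Nat.card ↥(Subgroup.centralizer ({(x : G ⧸ K)} : Set (G ⧸ K))) := by
      rw [h1]; ring
    exact Nat.eq_of_mul_eq_mul_left (Nat.mul_pos hpos1 hpos2) h8
  rw [h7, Subgroup.index_eq_card]
  exact Subgroup.card_subgroup_dvd_card _

end Cfsg.Agent.Lib.H61CmF1
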