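import Cfsg.Agent.Lib.H61CmDefs


set_option autoImplicit false

namespace Cfsg.Agent.Lib.H61CmF2

open Cfsg.Agent.Lib.H61CmDefs

variable {G : Type*} [Group G]

/-- **F2**.  Write `orderOf n = s^b * m` with `s ∤ m` (`Nat.exists_eq_pow_mul_and_not_dvd`, `orderOf_pos`).  `n' := n ^ (s^b)` has order `m` (`orderOf_pow_of_dvd`),
lies in `K`, commutes with `g`.  `hc g hg n'` : `g * n'` is conjugate to `g`, so `orderOf (g * n') = orderOf g` (`orderOf_conj`-like: `MulAut.conj`, `orderOf_injective`/`MulEquiv.orderOf_eq`).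
`Commute.orderOf_mul_eq_mul_orderOf_of_coprime` : `orderOf (g * n') = s^a * m`.  So `m = 1`. -/
theorem f2 [Finite G] (K : Subgroup G) (hc : Cam K) (s : ℕ) (hs : s.Prime) (g : G) (hg : g ∉ K) (a : ℕ)
    (hga : orderOf g = s ^ a) (n : G) (hn : n ∈ K) (hgn : g * n = n * g) : ∃ b : ℕ, orderOf n = s ^ b := by
  obtain ⟨b, m, hm, hnm⟩ := Nat.exists_eq_pow_mul_and_not_dvd (orderOf_pos n).ne' s hs.ne_one
  have hn' : orderOf (n ^ (s ^ b)) = m := by
    rw [orderOf_pow_of_dvd (pow_ne_zero _ hs.ne_zero) ⟨m, hnm⟩, hnm,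
      Nat.mul_div_cancel_left _ (pow_pos hs.pos _)]
  obtain ⟨x, hx⟩ := hc g hg (n ^ (s ^ b)) (K.pow_mem hn _)
  have ho : orderOf (g * n ^ (s ^ b)) = orderOf g := by
    rw [← hx]
    exact orderOf_injective (MulAut.conj x).toMonoidHom (MulAut.conj x).injective g
  have hcomm : Commute g (n ^ (s ^ b)) := (show Commute g n from hgn).pow_right _
  have hcop : Nat.Coprime (orderOf g) (orderOf (n ^ (s ^ b))) := by
    rw [hga, hn']
    exact Nat.Coprime.pow_left _ ((Nat.Prime.coprime_iff_not_dvd hs).2 hm)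
  have h2 := hcomm.orderOf_mul_eq_mul_orderOf_of_coprime hcop
  rw [ho, hn'] at h2
  have hm1 : m = 1 := by
    have hpos := orderOf_pos g
    have h3 : orderOf g * 1 = orderOf g * m := by rw [mul_one]; exact h2
    exact (Nat.eq_of_mul_eq_mul_left hpos h3).symm
  exact ⟨b, by rw [hnm, hm1, mul_one]⟩

end Cfsg.Agent.Lib.H61CmF2
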