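import Cfsg.Agent.Lib.H61CmDefs


set_option autoImplicit false

namespace Cfsg.Agent.Lib.H61CmNoE

open Cfsg.Agent.Lib.H61CmDefs

variable {G : Type*} [Group G]

/-- the norm of a fixed point free automorphism of order dividing `q` is trivial. -/
theorem norm_eq_one {W : Type*} [CommGroup W] (q : ℕ) (γ : MulAut W) (hγ : γ ^ q = 1)
    (hf : ∀ w : W, γ w = w → w = 1) (w : W) : ∏ k ∈ Finset.range q, (γ ^ k) w = 1 := by
  apply hf
  rw [map_prod]
  have h1 : ∀ k ∈ Finset.range q, γ ((γ ^ k) w) = (γ ^ (k + 1)) w := by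
    intro k _
    rw [pow_succ', MulAut.mul_apply]
  rw [Finset.prod_congr rfl h1]
  have h2 := Finset.prod_range_succ' (fun k => (γ ^ k) w) q
  have h3 := Finset.prod_range_succ (fun k => (γ ^ k) w) q
  rw [h3] at h2
  simp only [hγ, pow_zero] at h2
  exact (mul_right_cancel h2).symm

theorem pow_fix {W : Type*} [CommGroup W] (γ : MulAut W) (w : W) (h : γ w = w) (m : ℕ) :
    (γ ^ m) w = w := by
  induction m with
  | zero => simp
  | succ m ih => rw [pow_succ, MulAut.mul_apply, h, ih]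

/-- **NoE** (PURE MATHLIB; no fixed point free action of `C_q × C_q`).  For `γ` with `γ^q = 1` and no fixed points, `N_γ w := ∏ k ∈ range q, (γ^k) w` is fixed by `γ`
(shift the index, `Finset.prod_range_succ'`/`prod_range_succ_comm`, `γ^q = 1`), so `N_γ w = 1`.  Apply to `γ_j = α * β^j` (`(α β^j)^q = α^q β^(jq) = 1`, `(α β^j)^k = α^k β^(jk)` by commutation: `Commute.mul_pow`) and to `β`.
`1 = ∏ j, ∏ k, (α^k β^(jk)) w = ∏ k, α^k (∏ j, β^(jk) w)` (`Finset.prod_comm`, `map_prod`).  `k = 0`: `∏ j, w = w^q`.  `0 < k < q`: `j ↦ jk mod q` permutes `range q` and `β^(jk) = β^(jk mod q)`,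
so the inner product is `N_β w = 1`. -/
theorem noE {W : Type*} [CommGroup W] (q : ℕ) (hq : q.Prime) (α β : MulAut W) (hαβ : α * β = β * α)
    (hα : α ^ q = 1) (hβ : β ^ q = 1) (h1 : ∀ j : ℕ, ∀ w : W, (α * β ^ j) w = w → w = 1)
    (h2 : ∀ w : W, β w = w → w = 1) : ∀ w : W, w ^ q = 1 := by
  intro w
  have hc : Commute α β := hαβ
  have hpow : ∀ j k : ℕ, (α * β ^ j) ^ k = α ^ k * β ^ (k * j) := by
    intro j k
    rw [(hc.pow_right j).mul_pow, ← pow_mul, mul_comm j k]
  have hA : ∀ j ∈ Finset.range q, ∏ k ∈ Finset.range q, ((α * β ^ j) ^ k) w = 1 := by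
    intro j _
    apply norm_eq_one q _ _ (h1 j)
    rw [hpow, hα, pow_mul, hβ, one_pow, one_mul]
  have hB : ∏ j ∈ Finset.range q, ∏ k ∈ Finset.range q, ((α * β ^ j) ^ k) w = 1 :=
    Finset.prod_eq_one hA
  rw [Finset.prod_comm] at hB
  have hk : ∀ k ∈ Finset.range q, ∏ j ∈ Finset.range q, ((α * β ^ j) ^ k) w
      = (α ^ k) (∏ j ∈ Finset.range q, ((β ^ k) ^ j) w) := by
    intro k _
    rw [map_prod]
    apply Finset.prod_congr rfl
    intro j _
    rw [hpow, MulAut.mul_apply, pow_mul]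
  rw [Finset.prod_congr rfl hk] at hB
  rw [Finset.prod_eq_single 0] at hB
  · simpa using hB
  · intro k hkq hk0
    rw [Finset.mem_range] at hkq
    have hcop : Nat.Coprime k q :=
      Nat.Coprime.symm ((Nat.Prime.coprime_iff_not_dvd hq).mpr
        (fun hd => absurd (Nat.le_of_dvd (Nat.pos_of_ne_zero hk0) hd) (by omega)))
    obtain ⟨m, -, hm⟩ := Nat.exists_mul_mod_eq_one_of_coprime hcop hq.one_lt
    have hβm : (β ^ k) ^ m = β := by
      rw [← pow_mul]
      conv_lhs => rw [← Nat.div_add_mod (k * m) q, hm]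
      rw [pow_add, pow_mul, hβ, one_pow, one_mul, pow_one]
    rw [norm_eq_one q (β ^ k) (by rw [← pow_mul, mul_comm, pow_mul, hβ, one_pow]), map_one]
    intro v hv
    apply h2
    have := pow_fix (β ^ k) v hv m
    rwa [hβm] at this
  · intro h0
    exact absurd (Finset.mem_range.mpr hq.pos) h0

end Cfsg.Agent.Lib.H61CmNoE
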