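import Cfsg.Agent.Lib.H61CmDefs
import Cfsg.Agent.Lib.H61CmNoE

set_option autoImplicit false

namespace Cfsg.Agent.Lib.H61CmU

open Cfsg.Agent.Lib.H61CmDefs

variable {G : Type*} [Group G]

/-- the conjugation action of `Q` on `V`. -/
def act (Q V : Subgroup G) (hQV : Nz Q V) : ↥Q →* MulAut ↥V where
  toFun a :=
    { toFun := fun v => ⟨(a : G) * v * (a : G)⁻¹, hQV a a.2 v v.2⟩
      invFun := fun v => ⟨(a : G)⁻¹ * v * (a : G), by
        simpa using hQV (a : G)⁻¹ (Q.inv_mem a.2) v v.2⟩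
      left_inv := fun v => Subtype.ext (by simp [mul_assoc])
      right_inv := fun v => Subtype.ext (by simp [mul_assoc])
      map_mul' := fun v w => Subtype.ext (by simp [mul_assoc]) }
  map_one' := by
    ext v
    simp
  map_mul' := fun a b => by
    ext v
    simp [mul_assoc]

theorem act_apply (Q V : Subgroup G) (hQV : Nz Q V) (a : Q) (v : V) :
    ((act Q V hQV a v : V) : G) = (a : G) * v * (a : G)⁻¹ := rfl

theorem act_eq_one (Q Q0 V : Subgroup G) (hQV : Nz Q V) (hQ0V : Cz Q0 V) (a : Q)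
    (ha : (a : G) ∈ Q0) : act Q V hQV a = 1 := by
  ext v
  rw [act_apply, hQ0V a ha v v.2]
  simp

/-- **U** (uses NoE).  Let `g ∈ Q \ Q0`.  `g` has order `q^a`; let `j` be maximal with `g' := g^(q^j) ∉ Q0` (`Nat.find`/`Nat.findGreatest`; `g^(q^a) = 1 ∈ Q0`): `g' ∉ Q0`, `g'^q ∈ Q0`.
CLAIM: `x * g'^k ∈ Q0` for some `k`.  Then `l := x * g'^k`, and `x = l * (g'^k)⁻¹ = l * g^m` with `m = (orderOf g - 1) * q^j * k` (`inv = pow (orderOf - 1)`), done.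
Suppose not.  `W := ↥V` is a `CommGroup` (`hVab`); `α, β : MulAut W` = conjugation by `x`, `g'` (`hQV`; e.g. a hom `↥Q →* MulAut W`).  `α β = β α` on `V` since `g' x g'⁻¹ x⁻¹ ∈ Q0` centralizes `V` (`hxc`, `hQ0V`);
`α^q = 1`, `β^q = 1` since `x^q, g'^q ∈ Q0`.  `α β^j` is conjugation by `x g'^j ∈ Q \ Q0`: no fixed points (`hfpf`); same for `β`.  `H61CmNoE.noE`: `w^q = 1` for all `w ∈ V`; as `card V` is prime to `q`, `V = ⊥`
(`orderOf w ∣ q` and `∣ card V`): contradiction with `hV1`. -/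
theorem u [Finite G] (q : ℕ) [Fact q.Prime] (Q Q0 V : Subgroup G) (hQ : IsPGroup q Q) (h0 : Q0 ≤ Q)
    (hV1 : V ≠ ⊥) (hVab : Cz V V) (hVq : (Nat.card V).Coprime q) (hQV : Nz Q V) (hQ0V : Cz Q0 V)
    (hfpf : ∀ g ∈ Q, g ∉ Q0 → ∀ v ∈ V, g * v = v * g → v = 1)
    (x : G) (hx : x ∈ Q) (hx0 : x ∉ Q0) (hxq : x ^ q ∈ Q0) (hxc : ∀ g ∈ Q, g * x * g⁻¹ * x⁻¹ ∈ Q0) :
    ∀ g ∈ Q, g ∉ Q0 → ∃ (m : ℕ) (l : G), l ∈ Q0 ∧ x = l * g ^ m := by
  classical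
  have hq : q.Prime := Fact.out
  intro g hg hg0
  obtain ⟨a, ha⟩ := (IsPGroup.iff_orderOf.1 hQ) ⟨g, hg⟩
  rw [Subgroup.orderOf_mk] at ha
  have hex : ∃ j : ℕ, g ^ (q ^ j) ∈ Q0 := ⟨a, by rw [← ha, pow_orderOf_eq_one]; exact Q0.one_mem⟩
  have hj0 : Nat.find hex ≠ 0 := by
    intro h
    have := Nat.find_spec hex
    rw [h, pow_zero, pow_one] at this
    exact hg0 this
  obtain ⟨j, hj⟩ := Nat.exists_eq_succ_of_ne_zero hj0
  have hg'0 : g ^ (q ^ j) ∉ Q0 := Nat.find_min hex (by omega)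
  have hg'q : (g ^ (q ^ j)) ^ q ∈ Q0 := by
    have := Nat.find_spec hex
    rw [hj, Nat.succ_eq_add_one, pow_succ, pow_mul] at this
    exact this
  have hg'Q : g ^ (q ^ j) ∈ Q := Q.pow_mem hg _
  by_cases hcl : ∃ k : ℕ, x * (g ^ (q ^ j)) ^ k ∈ Q0
  · obtain ⟨k, hk⟩ := hcl
    obtain ⟨m, hm⟩ : ((g ^ (q ^ j)) ^ k)⁻¹ ∈ Submonoid.powers g := by
      apply mem_powers_iff_mem_zpowers.mpr
      exact Subgroup.inv_mem _ (Subgroup.pow_mem _ (Subgroup.pow_mem _ (Subgroup.mem_zpowers g) _) _)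
    refine ⟨m, x * (g ^ (q ^ j)) ^ k, hk, ?_⟩
    have hm' : g ^ m = ((g ^ (q ^ j)) ^ k)⁻¹ := hm
    rw [hm', mul_inv_cancel_right]
  · exfalso
    push Not at hcl
    letI : CommGroup ↥V :=
      { (inferInstance : Group ↥V) with
        mul_comm := fun v w => Subtype.ext (hVab v v.2 w w.2) }
    have hcomm : act Q V hQV ⟨x, hx⟩ * act Q V hQV ⟨g ^ (q ^ j), hg'Q⟩
        = act Q V hQV ⟨g ^ (q ^ j), hg'Q⟩ * act Q V hQV ⟨x, hx⟩ := by
      have h1 := act_eq_one Q Q0 V hQV hQ0V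
        ((⟨g ^ (q ^ j), hg'Q⟩ : Q) * ⟨x, hx⟩ * (⟨g ^ (q ^ j), hg'Q⟩ : Q)⁻¹ * (⟨x, hx⟩ : Q)⁻¹)
        (hxc _ hg'Q)
      rw [map_mul, map_mul, map_mul, map_inv, map_inv] at h1
      have h2 := mul_inv_eq_one.1 h1
      have h3 := mul_inv_eq_iff_eq_mul.1 h2
      exact h3.symm
    have hα : act Q V hQV ⟨x, hx⟩ ^ q = 1 := by
      rw [← map_pow]
      exact act_eq_one Q Q0 V hQV hQ0V _ hxq
    have hβ : act Q V hQV ⟨g ^ (q ^ j), hg'Q⟩ ^ q = 1 := by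
      rw [← map_pow]
      exact act_eq_one Q Q0 V hQV hQ0V _ hg'q
    have hfix : ∀ (c : Q), (c : G) ∉ Q0 → ∀ w : V, act Q V hQV c w = w → w = 1 := by
      intro c hc w hw
      have h1 : (c : G) * w * (c : G)⁻¹ = w := by
        rw [← act_apply Q V hQV c w, hw]
      have h2 : (c : G) * w = w * c := mul_inv_eq_iff_eq_mul.1 h1
      exact Subtype.ext (hfpf c c.2 hc w w.2 h2)
    have h1 : ∀ i : ℕ, ∀ w : V,
        (act Q V hQV ⟨x, hx⟩ * act Q V hQV ⟨g ^ (q ^ j), hg'Q⟩ ^ i) w = w → w = 1 := by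
      intro i w hw
      rw [← map_pow, ← map_mul] at hw
      exact hfix _ (hcl i) w hw
    have h2 : ∀ w : V, act Q V hQV ⟨g ^ (q ^ j), hg'Q⟩ w = w → w = 1 := fun w hw =>
      hfix _ hg'0 w hw
    have hall := Cfsg.Agent.Lib.H61CmNoE.noE q hq (act Q V hQV ⟨x, hx⟩)
      (act Q V hQV ⟨g ^ (q ^ j), hg'Q⟩) hcomm hα hβ h1 h2
    apply hV1
    rw [Subgroup.eq_bot_iff_forall]
    intro v hv
    have h3 : (⟨v, hv⟩ : V) ^ q = 1 := hall ⟨v, hv⟩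
    have h4 : orderOf (⟨v, hv⟩ : V) ∣ q := orderOf_dvd_of_pow_eq_one h3
    have h5 : orderOf (⟨v, hv⟩ : V) ∣ Nat.card V := orderOf_dvd_natCard _
    have h6 : orderOf (⟨v, hv⟩ : V) = 1 := Nat.eq_one_of_dvd_coprimes hVq h5 h4
    have h7 := orderOf_eq_one_iff.1 h6
    exact congrArg Subtype.val h7

end Cfsg.Agent.Lib.H61CmU
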