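import Cfsg.Agent.Lib.H61CmDefs
import Cfsg.Agent.Lib.H61CmF1
import Cfsg.Agent.Lib.H61CmF2
import Cfsg.Agent.Lib.H61CmCen
import Cfsg.Agent.Lib.H61CmComm
import Cfsg.Agent.Lib.H61CmCount
import Cfsg.Agent.Lib.H61CmU

set_option autoImplicit false

namespace Cfsg.Agent.Lib.H61CmAlpha

open Cfsg.Agent.Lib.H61CmDefs

variable {G : Type*} [Group G]

/-- **Alpha** (glue: F1 F2 Cen Comm Count U).  `Q0 := Q ⊓ K`: `Nz Q Q0` (`K` normal), `Q0 ≠ Q` (`hQK`).  `x` from `H61CmCen.cen`; `x ∉ K`.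
fpf: `g ∈ Q \ Q0` is a `q`-element outside `K` (`hQ`: `IsPGroup.iff_orderOf`-style, `orderOf g = q^a`); if `v ∈ V` commutes with `g` then `orderOf v = q^b` (`H61CmF2.f2`, `hVK`) and `orderOf v ∣ card V` prime to `q`: `v = 1`.
`H61CmU.u`: every `g ∈ Q \ Q0` has `x = l * g^m`, `l ∈ Q0`.  `Q1` from `H61CmComm.comm`.  For all `g ∈ Q`: `g x g⁻¹ x⁻¹ ∈ Q1`:
 if `g ∉ Q0`: `g x g⁻¹ x⁻¹ = g l g⁻¹ l⁻¹` (as `g` commutes with `g^m`);  if `g ∈ Q0`: `g x g⁻¹ x⁻¹ = g (x g⁻¹ x⁻¹ g) g⁻¹` and `x g⁻¹ x⁻¹ g = x l x⁻¹ l⁻¹ ∈ Q1` with `l = g⁻¹`, `Nz Q Q1`.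
`H61CmCount.count`: `card Q ≤ card Q1 * card (Q ⊓ C(x))`.  `Q ⊓ C(x)` is a `q`-group: `card = q^k` (`IsPGroup.exists_card_eq`), `q^k ∣ card C(x) ∣ K.index` (`Subgroup.card_dvd_of_le`, `H61CmF1.f1`); `hidx`: `q^k * card Q0 ≤ card Q`.
So `card Q0 ≤ card Q1` (cancel `q^k > 0`), contradicting `Q1 < Q0` (`Subgroup.card_lt_of_lt`/`Set.ncard_lt_ncard`). -/
theorem alpha [Finite G] (K : Subgroup G) [K.Normal] (hc : Cam K) (q : ℕ) [Fact q.Prime]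
    (Q : Subgroup G) (hQ : IsPGroup q Q) (hQK : ¬ Q ≤ K) (hQ0 : Q ⊓ K ≠ ⊥)
    (hidx : ∀ k : ℕ, q ^ k ∣ K.index → q ^ k * Nat.card ↥(Q ⊓ K) ≤ Nat.card Q)
    (V : Subgroup G) (hVK : V ≤ K) (hV1 : V ≠ ⊥) (hVab : Cz V V) (hVq : (Nat.card V).Coprime q)
    (hQV : Nz Q V) (hQ0V : Cz (Q ⊓ K) V) : False := by
  have hq : q.Prime := Fact.out
  have h0 : Q ⊓ K ≤ Q := inf_le_left
  have hKn : K.Normal := inferInstance
  have hn : Nz Q (Q ⊓ K) := fun a ha b hb =>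
    ⟨Q.mul_mem (Q.mul_mem ha hb.1) (Q.inv_mem ha), hKn.conj_mem b hb.2 a⟩
  have hne : Q ⊓ K ≠ Q := fun h => hQK (h ▸ inf_le_right)
  obtain ⟨x, hxQ, hx0, hxq, hxc⟩ := Cfsg.Agent.Lib.H61CmCen.cen q Q (Q ⊓ K) hQ h0 hn hne
  have hxK : x ∉ K := fun h => hx0 ⟨hxQ, h⟩
  have hord : ∀ g ∈ Q, ∃ a : ℕ, orderOf g = q ^ a := by
    intro g hg
    obtain ⟨a, ha⟩ := (IsPGroup.iff_orderOf.1 hQ) ⟨g, hg⟩
    exact ⟨a, by rw [← ha, Subgroup.orderOf_mk]⟩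
  have hfpf : ∀ g ∈ Q, g ∉ Q ⊓ K → ∀ v ∈ V, g * v = v * g → v = 1 := by
    intro g hg hg0 v hv hgv
    have hgK : g ∉ K := fun h => hg0 ⟨hg, h⟩
    obtain ⟨a, ha⟩ := hord g hg
    obtain ⟨b, hb⟩ := Cfsg.Agent.Lib.H61CmF2.f2 K hc q hq g hgK a ha v (hVK hv) hgv
    have h1 : orderOf v ∣ Nat.card V := by
      have := orderOf_dvd_natCard (⟨v, hv⟩ : V)
      rwa [Subgroup.orderOf_mk] at this
    rw [hb] at h1
    have h2 : q ^ b = 1 := Nat.Coprime.eq_one_of_dvd (Nat.Coprime.pow_left b hVq.symm) h1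
    rw [h2] at hb
    exact orderOf_eq_one_iff.1 hb
  have hU := Cfsg.Agent.Lib.H61CmU.u q Q (Q ⊓ K) V hQ h0 hV1 hVab hVq hQV hQ0V hfpf x hxQ hx0 hxq hxc
  obtain ⟨Q1, hQ1lt, hQ1n, hQ1c⟩ := Cfsg.Agent.Lib.H61CmComm.comm q Q (Q ⊓ K) hQ h0 hn hQ0
  have hall : ∀ g ∈ Q, g * x * g⁻¹ * x⁻¹ ∈ Q1 := by
    intro g hg
    by_cases hg0 : g ∈ Q ⊓ K
    · have h1 := hQ1c x hxQ g⁻¹ ((Q ⊓ K).inv_mem hg0)
      have h2 := hQ1n g hg _ h1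
      convert h2 using 1
      group
    · obtain ⟨m, l, hl, hxl⟩ := hU g hg hg0
      have h1 := hQ1c g hg l hl
      have h2 : g * x * g⁻¹ * x⁻¹ = g * l * g⁻¹ * l⁻¹ := by
        rw [hxl]
        group
      rw [h2]
      exact h1
  have hcount := Cfsg.Agent.Lib.H61CmCount.count Q Q1 x hall
  have hCxp : IsPGroup q ↥(Q ⊓ Subgroup.centralizer ({x} : Set G)) := hQ.to_le inf_le_left
  obtain ⟨k, hk⟩ := IsPGroup.iff_card.1 hCxp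
  have hdvd : q ^ k ∣ K.index := by
    rw [← hk]
    exact (Subgroup.card_dvd_of_le inf_le_right).trans (Cfsg.Agent.Lib.H61CmF1.f1 K hc x hxK)
  have h3 := hidx k hdvd
  rw [hk] at hcount
  have hpos : 0 < q ^ k := pow_pos hq.pos k
  have h4 : Nat.card ↥(Q ⊓ K) ≤ Nat.card Q1 := by
    have h5 : q ^ k * Nat.card ↥(Q ⊓ K) ≤ q ^ k * Nat.card Q1 := by
      calc q ^ k * Nat.card ↥(Q ⊓ K) ≤ Nat.card Q := h3
        _ ≤ Nat.card Q1 * q ^ k := hcount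
        _ = q ^ k * Nat.card Q1 := Nat.mul_comm _ _
    exact Nat.le_of_mul_le_mul_left h5 hpos
  have h6 : Q1 = Q ⊓ K := Subgroup.eq_of_le_of_card_ge hQ1lt.le h4
  exact hQ1lt.ne h6

end Cfsg.Agent.Lib.H61CmAlpha
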