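import Mathlib

set_option autoImplicit false

/-! Vocabulary for project 4140 (Camina pairs). -/

namespace Cfsg.Agent.Lib.H61CmDefs

variable {G : Type*} [Group G]

/-- `(G, K)` is a Camina pair: `g` is conjugate to `g n` for `g ∉ K`, `n ∈ K`. -/
def Cam (K : Subgroup G) : Prop := ∀ g : G, g ∉ K → ∀ n ∈ K, ∃ x : G, x * g * x⁻¹ = g * n

/-- `A` normalizes `B` (elementwise form). -/
def Nz (A B : Subgroup G) : Prop := ∀ a ∈ A, ∀ b ∈ B, a * b * a⁻¹ ∈ B

/-- `A` centralizes `B`. -/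
def Cz (A B : Subgroup G) : Prop := ∀ a ∈ A, ∀ b ∈ B, a * b = b * a

end Cfsg.Agent.Lib.H61CmDefs
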