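import Cfsg.Agent.Lib.H61CmDefs


set_option autoImplicit false

namespace Cfsg.Agent.Lib.H61CmElt

open Cfsg.Agent.Lib.H61CmDefs

variable {G : Type*} [Group G]

/-- **Elt** (PURE MATHLIB).  Cauchy in `G ⧸ K` (`exists_prime_orderOf_dvd_card`, `card (G ⧸ K) = K.index`): `ȳ` of order `s`; every coset meets `H` (`hHK`: `g = h * k`), so `ȳ = mk y₀`, `y₀ ∈ H`.
`orderOf y₀ = s^a * m`, `s ∤ m`; `y := y₀ ^ m` has order `s^a`, `y ∈ H`, `mk y = ȳ^m ≠ 1` (`s ∤ m`, `orderOf_dvd_iff_pow_eq_one`), `mk (y^s) = (ȳ^s)^m = 1`. -/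
theorem elt [Finite G] (K : Subgroup G) [K.Normal] (H : Subgroup G) (hHK : H ⊔ K = ⊤) (s : ℕ) (hs : s.Prime)
    (hsK : s ∣ K.index) : ∃ y ∈ H, y ∉ K ∧ y ^ s ∈ K ∧ ∃ a : ℕ, orderOf y = s ^ a := by
  haveI : Fact s.Prime := ⟨hs⟩
  have hcard : s ∣ Nat.card (G ⧸ K) := by rw [← Subgroup.index_eq_card]; exact hsK
  obtain ⟨ybar, hy⟩ := exists_prime_orderOf_dvd_card' s hcard
  obtain ⟨g, rfl⟩ := QuotientGroup.mk_surjective ybar
  have hg : g ∈ H ⊔ K := by rw [hHK]; trivial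
  rw [← SetLike.mem_coe, Subgroup.mul_normal] at hg
  obtain ⟨y0, hy0, k, hk, rfl⟩ := hg
  have hmk : ((y0 * k : G) : G ⧸ K) = (y0 : G ⧸ K) := by
    rw [QuotientGroup.mk_mul, (QuotientGroup.eq_one_iff k).2 hk, mul_one]
  rw [hmk] at hy
  obtain ⟨a, m, hm, hnm⟩ := Nat.exists_eq_pow_mul_and_not_dvd (orderOf_pos y0).ne' s hs.ne_one
  have hm0 : m ≠ 0 := by
    rintro rfl
    exact hm (dvd_zero _)
  refine ⟨y0 ^ m, H.pow_mem hy0 _, ?_, ?_, a, ?_⟩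
  · intro h
    rw [← QuotientGroup.eq_one_iff, QuotientGroup.mk_pow, ← orderOf_dvd_iff_pow_eq_one, hy] at h
    exact hm h
  · rw [← QuotientGroup.eq_one_iff, QuotientGroup.mk_pow, QuotientGroup.mk_pow, ← pow_mul, mul_comm,
      pow_mul, ← hy, pow_orderOf_eq_one, one_pow]
  · rw [orderOf_pow_of_dvd hm0 ⟨s ^ a, by rw [hnm, mul_comm]⟩, hnm,
      Nat.mul_div_cancel _ (Nat.pos_of_ne_zero hm0)]

end Cfsg.Agent.Lib.H61CmElt
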