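import Cfsg.Agent.Lib.H61CmDefs


set_option autoImplicit false

namespace Cfsg.Agent.Lib.H61CmF3

open Cfsg.Agent.Lib.H61CmDefs

variable {G : Type*} [Group G]

/-- **F3** (supplement lemma), by three injections. -/
theorem f3 [Finite G] (K : Subgroup G) [hKn : K.Normal] (hc : Cam K) (H : Subgroup G) (hHK : H ⊔ K = ⊤) (x : G)
    (hxH : x ∈ H) (hx : x ∉ K) (c : G) (hcx : c * x = x * c) : c ∈ H := by
  classical
  -- the relevant finite sets, as subtypes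
  let D := {g : G // g * x * g⁻¹ * x⁻¹ ∈ K}
  let DH := {g : G // g ∈ H ∧ g * x * g⁻¹ * x⁻¹ ∈ K}
  let M := {g : G // g ∈ H ∧ g ∈ K}
  let C := {g : G // g * x = x * g}
  let CH := {g : G // g ∈ H ∧ g * x = x * g}
  -- (a) `K × C → D`
  have hcam : ∀ n : K, ∃ g : G, g * x * g⁻¹ * x⁻¹ = n := by
    intro n
    obtain ⟨g, hg⟩ := hc x hx (x⁻¹ * n * x) (by
      have := hKn.conj_mem n.1 n.2 x⁻¹
      rwa [inv_inv] at this)
    refine ⟨g, ?_⟩
    rw [hg]; group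
  choose γ hγ using hcam
  have ha : Nat.card K * Nat.card C ≤ Nat.card D := by
    rw [← Nat.card_prod]
    let f : K × C → D := fun p => ⟨γ p.1 * p.2.1, by
      have h1 : γ p.1 * p.2.1 * x * (γ p.1 * p.2.1)⁻¹ * x⁻¹ = γ p.1 * x * (γ p.1)⁻¹ * x⁻¹ := by
        have := p.2.2
        calc γ p.1 * p.2.1 * x * (γ p.1 * p.2.1)⁻¹ * x⁻¹ = γ p.1 * (p.2.1 * x) * p.2.1⁻¹ * (γ p.1)⁻¹ * x⁻¹ := by group
          _ = γ p.1 * (x * p.2.1) * p.2.1⁻¹ * (γ p.1)⁻¹ * x⁻¹ := by rw [this]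
          _ = _ := by group
      rw [h1, hγ]; exact p.1.2⟩
    apply Nat.card_le_card_of_injective f
    rintro ⟨n, c1⟩ ⟨n', c2⟩ hff
    have h0 : γ n * c1.1 = γ n' * c2.1 := congrArg Subtype.val hff
    have key : ∀ (n : K) (c1 : C), γ n * c1.1 * x * (γ n * c1.1)⁻¹ * x⁻¹ = n := by
      intro n c1
      have := c1.2
      calc γ n * c1.1 * x * (γ n * c1.1)⁻¹ * x⁻¹ = γ n * (c1.1 * x) * c1.1⁻¹ * (γ n)⁻¹ * x⁻¹ := by group
        _ = γ n * (x * c1.1) * c1.1⁻¹ * (γ n)⁻¹ * x⁻¹ := by rw [this]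
        _ = γ n * x * (γ n)⁻¹ * x⁻¹ := by group
        _ = n := hγ n
    have h1 : n = n' := by
      apply Subtype.ext
      rw [← key n c1, ← key n' c2, h0]
    subst h1
    have h2 : c1 = c2 := Subtype.ext (mul_left_cancel h0)
    rw [h2]
  -- (b) `D × M → DH × K`
  have hdec : ∀ d : G, ∃ h ∈ H, ∃ k ∈ K, d = h * k := by
    intro d
    have : d ∈ H ⊔ K := by rw [hHK]; exact Subgroup.mem_top d
    rw [← SetLike.mem_coe, Subgroup.mul_normal] at this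
    obtain ⟨h, hh, k, hk, rfl⟩ := Set.mem_mul.1 this
    exact ⟨h, hh, k, hk, rfl⟩
  choose η hηH κ hκK hηκ using hdec
  have hDK : ∀ d : G, d * x * d⁻¹ * x⁻¹ ∈ K → ∀ k ∈ K, (d * k) * x * (d * k)⁻¹ * x⁻¹ ∈ K := by
    intro d hd k hk
    have h1 : (d * k) * x * (d * k)⁻¹ * x⁻¹ = (d * (k * (x * k⁻¹ * x⁻¹)) * d⁻¹) * (d * x * d⁻¹ * x⁻¹) := by group
    rw [h1]
    exact K.mul_mem (hKn.conj_mem _ (K.mul_mem hk (hKn.conj_mem _ (K.inv_mem hk) x)) d) hd
  have hb : Nat.card D * Nat.card M ≤ Nat.card DH * Nat.card K := by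
    rw [← Nat.card_prod, ← Nat.card_prod]
    let f : D × M → DH × K := fun p =>
      (⟨η p.1.1 * p.2.1, H.mul_mem (hηH _) p.2.2.1, by
        have h1 : η p.1.1 * p.2.1 = p.1.1 * ((κ p.1.1)⁻¹ * p.2.1) := by
          have h0 := hηκ p.1.1
          calc η p.1.1 * p.2.1 = (η p.1.1 * κ p.1.1) * ((κ p.1.1)⁻¹ * p.2.1) := by group
            _ = p.1.1 * ((κ p.1.1)⁻¹ * p.2.1) := by rw [← h0]
        rw [h1]
        exact hDK _ p.1.2 _ (K.mul_mem (K.inv_mem (hκK _)) p.2.2.2)⟩,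
       ⟨p.2.1⁻¹ * κ p.1.1, K.mul_mem (K.inv_mem p.2.2.2) (hκK _)⟩)
    apply Nat.card_le_card_of_injective f
    rintro ⟨d, m⟩ ⟨d', m'⟩ hff
    have h1 : η d.1 * m.1 = η d'.1 * m'.1 := congrArg (fun p => p.1.1) hff
    have h2 : m.1⁻¹ * κ d.1 = m'.1⁻¹ * κ d'.1 := congrArg (fun p => p.2.1) hff
    have h3 : d.1 = d'.1 := by
      calc d.1 = η d.1 * κ d.1 := hηκ d.1
        _ = (η d.1 * m.1) * (m.1⁻¹ * κ d.1) := by group
        _ = (η d'.1 * m'.1) * (m'.1⁻¹ * κ d'.1) := by rw [h1, h2]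
        _ = η d'.1 * κ d'.1 := by group
        _ = d'.1 := (hηκ d'.1).symm
    have h4 : d = d' := Subtype.ext h3
    subst h4
    have h5 : m = m' := Subtype.ext (mul_left_cancel h1)
    rw [h5]
  -- (c) `DH → M × CH`
  have hcc : Nat.card DH ≤ Nat.card M * Nat.card CH := by
    rw [← Nat.card_prod]
    let ψ : DH → G := fun g => g.1 * x * g.1⁻¹ * x⁻¹
    -- a representative for each value
    let ρ : DH → DH := fun g => Classical.choose (⟨g, rfl⟩ : ∃ g' : DH, ψ g' = ψ g)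
    have hρ : ∀ g, ψ (ρ g) = ψ g := fun g => Classical.choose_spec (⟨g, rfl⟩ : ∃ g' : DH, ψ g' = ψ g)
    have hρ2 : ∀ g g', ψ g = ψ g' → ρ g = ρ g' := by
      intro g g' hgg
      simp only [ρ, hgg]
    let f : DH → M × CH := fun g =>
      (⟨ψ g, H.mul_mem (H.mul_mem (H.mul_mem g.2.1 hxH) (H.inv_mem g.2.1)) (H.inv_mem hxH), g.2.2⟩,
       ⟨(ρ g).1⁻¹ * g.1, H.mul_mem (H.inv_mem (ρ g).2.1) g.2.1, by
        have h1 : (ρ g).1 * x * (ρ g).1⁻¹ * x⁻¹ = g.1 * x * g.1⁻¹ * x⁻¹ := hρ g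
        have h2 : (ρ g).1 * x * (ρ g).1⁻¹ = g.1 * x * g.1⁻¹ := mul_right_cancel h1
        calc (ρ g).1⁻¹ * g.1 * x = (ρ g).1⁻¹ * (g.1 * x * g.1⁻¹) * g.1 := by group
          _ = (ρ g).1⁻¹ * ((ρ g).1 * x * (ρ g).1⁻¹) * g.1 := by rw [h2]
          _ = x * ((ρ g).1⁻¹ * g.1) := by group⟩)
    apply Nat.card_le_card_of_injective f
    intro g g' hff
    have h1 : ψ g = ψ g' := congrArg (fun p => p.1.1) hff
    have h2 : (ρ g).1⁻¹ * g.1 = (ρ g').1⁻¹ * g'.1 := congrArg (fun p => p.2.1) hff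
    rw [hρ2 g g' h1] at h2
    exact Subtype.ext (mul_left_cancel h2)
  -- conclusion
  have hKpos : 0 < Nat.card K := Nat.card_pos
  have hMpos : 0 < Nat.card M := by
    have : Nonempty M := ⟨⟨1, H.one_mem, K.one_mem⟩⟩
    exact Nat.card_pos
  have hle : Nat.card C ≤ Nat.card CH := by
    have h1 : Nat.card K * Nat.card C * Nat.card M ≤ Nat.card M * Nat.card CH * Nat.card K :=
      calc Nat.card K * Nat.card C * Nat.card M ≤ Nat.card D * Nat.card M := Nat.mul_le_mul_right _ ha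
        _ ≤ Nat.card DH * Nat.card K := hb
        _ ≤ Nat.card M * Nat.card CH * Nat.card K := Nat.mul_le_mul_right _ hcc
    have h2 : (Nat.card K * Nat.card M) * Nat.card C ≤ (Nat.card K * Nat.card M) * Nat.card CH := by
      calc (Nat.card K * Nat.card M) * Nat.card C = Nat.card K * Nat.card C * Nat.card M := by ring
        _ ≤ Nat.card M * Nat.card CH * Nat.card K := h1
        _ = (Nat.card K * Nat.card M) * Nat.card CH := by ring
    exact Nat.le_of_mul_le_mul_left h2 (Nat.mul_pos hKpos hMpos)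
  let ι : CH → C := fun g => ⟨g.1, g.2.2⟩
  have hι : Function.Injective ι := by
    intro g g' hgg
    have h0 : g.1 = g'.1 := congrArg (fun y : C => y.1) hgg
    exact Subtype.ext h0
  obtain ⟨g, hg⟩ := (hι.bijective_of_nat_card_le hle).2 ⟨c, hcx⟩
  have : g.1 = c := congrArg Subtype.val hg
  rw [← this]
  exact g.2.1

end Cfsg.Agent.Lib.H61CmF3
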