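import Cfsg.Agent.Lib.H61CmDefs


set_option autoImplicit false

namespace Cfsg.Agent.Lib.H61CmFA

open Cfsg.Agent.Lib.H61CmDefs

variable {G : Type*} [Group G]

/-- the norm of a fixed point free automorphism of order dividing `q` is trivial. -/
theorem norm_eq_one {W : Type*} [CommGroup W] (q : ℕ) (γ : MulAut W) (hγ : γ ^ q = 1)
    (hf : ∀ w : W, γ w = w → w = 1) (w : W) : ∏ k ∈ Finset.range q, (γ ^ k) w = 1 := by
  apply hf
  rw [map_prod]
  have h1 : ∀ k ∈ Finset.range q, γ ((γ ^ k) w) = (γ ^ (k + 1)) w := by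
    intro k _
    rw [pow_succ', MulAut.mul_apply]
  rw [Finset.prod_congr rfl h1]
  have h2 := Finset.prod_range_succ' (fun k => (γ ^ k) w) q
  have h3 := Finset.prod_range_succ (fun k => (γ ^ k) w) q
  rw [h3] at h2
  simp only [hγ, pow_zero] at h2
  exact (mul_right_cancel h2).symm

/-- the abstract form of `fa`. -/
theorem abs_fa {W : Type*} [CommGroup W] {Λ : Type*} [Group Λ] [Fintype Λ] (a : Λ →* MulAut W)
    (η : MulAut W) (c : MulAut Λ) (r : ℕ) (hcomp : ∀ l w, η (a l w) = a (c l) (η w))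
    (hη : η ^ r = 1) (hc : ∀ i : ℕ, 0 < i → i < r → ∀ l, (c ^ i) l = l → l = 1)
    (hfη : ∀ w, η w = w → w = 1) (hfa : ∀ w, (∀ l, a l w = w) → w = 1) (hr : 0 < r) :
    ∀ w : W, w ^ Fintype.card Λ = 1 := by
  intro w
  have hA : ∀ w, ∏ l : Λ, a l w = 1 := by
    intro w
    apply hfa
    intro l₀
    rw [map_prod]
    have h1 : ∀ l, a l₀ (a l w) = a (l₀ * l) w := by
      intro l; rw [map_mul, MulAut.mul_apply]
    simp_rw [h1]
    exact Equiv.prod_comp (Equiv.mulLeft l₀) (fun l => a l w)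
  have hB : ∀ w, ∏ i ∈ Finset.range r, (η ^ i) w = 1 := norm_eq_one r η hη hfη
  have hcompi : ∀ i : ℕ, ∀ l w, (η ^ i) (a l w) = a ((c ^ i) l) ((η ^ i) w) := by
    intro i
    induction i with
    | zero => intro l w; simp
    | succ i ih =>
      intro l w
      rw [pow_succ', MulAut.mul_apply, ih, hcomp, pow_succ', MulAut.mul_apply, MulAut.mul_apply]
  obtain ⟨T, hT⟩ : ∃ T : ℕ → W, T = fun i => ∏ u : Λ, a u ((η ^ i) (a u⁻¹ w)) := ⟨_, rfl⟩
  have hT1 : ∏ i ∈ Finset.range r, T i = 1 := by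
    rw [hT]
    show ∏ i ∈ Finset.range r, ∏ u : Λ, a u ((η ^ i) (a u⁻¹ w)) = 1
    rw [Finset.prod_comm]
    apply Finset.prod_eq_one
    intro u _
    rw [← map_prod, hB, map_one]
  have hT0 : T 0 = w ^ Fintype.card Λ := by
    rw [hT]
    show ∏ u : Λ, a u ((η ^ 0) (a u⁻¹ w)) = _
    have h1 : ∀ u : Λ, a u ((η ^ 0) (a u⁻¹ w)) = w := by
      intro u
      rw [pow_zero, MulAut.one_apply, ← MulAut.mul_apply, ← map_mul, mul_inv_cancel, map_one,
        MulAut.one_apply]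
    simp_rw [h1]
    simp
  have hTi : ∀ i ∈ Finset.range r, i ≠ 0 → T i = 1 := by
    intro i hi hi0
    rw [Finset.mem_range] at hi
    have hinj : Function.Injective (fun u : Λ => u * (c ^ i) u⁻¹) := by
      intro u u' huu
      have h1 : u * (c ^ i) u⁻¹ = u' * (c ^ i) u'⁻¹ := huu
      rw [map_inv, map_inv] at h1
      have h3 : (c ^ i) (u'⁻¹ * u) = u'⁻¹ * u := by
        rw [map_mul, map_inv]
        calc ((c ^ i) u')⁻¹ * (c ^ i) u = u'⁻¹ * (u' * ((c ^ i) u')⁻¹) * (c ^ i) u := by group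
          _ = u'⁻¹ * (u * ((c ^ i) u)⁻¹) * (c ^ i) u := by rw [h1]
          _ = u'⁻¹ * u := by group
      have h2 := hc i (Nat.pos_of_ne_zero hi0) hi _ h3
      exact (inv_mul_eq_one.mp h2).symm
    have hbij : Function.Bijective (fun u : Λ => u * (c ^ i) u⁻¹) :=
      Finite.injective_iff_bijective.mp hinj
    have h4 := hA ((η ^ i) w)
    rw [← (Equiv.ofBijective _ hbij).prod_comp] at h4
    rw [← h4, hT]
    apply Finset.prod_congr rfl
    intro u _
    rw [hcompi, Equiv.ofBijective_apply, map_mul, MulAut.mul_apply]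
  rw [Finset.prod_eq_single 0 hTi (fun h0 => absurd (Finset.mem_range.mpr hr) h0)] at hT1
  rw [← hT0, hT1]

/-- **FA** (PURE MATHLIB; a Frobenius group `L⟨h⟩` acting on an abelian group `V` of order prime to `card L` with `C_V(h) = 1` has `C_V(L) ≠ 1`).
Suppose `C_V(L) = 1`.  `W := ↥V` commutative (`hVab`); write `g·w = g w g⁻¹` for `g` in the group generated by `L` and `h` (all normalize `V`).
(a) `A w := ∏ l ∈ L, l·w` is fixed by `L` (reindex `l ↦ l₀ l`), so `A w = 1` for all `w`.  (b) `B w := ∏ i ∈ range r, h^i·w` is fixed by `h` (`h^r = 1`), so `B w = 1`, i.e. `∏ i ∈ Ico 1 r, h^i·w = w⁻¹`.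
(c) for `0 < i < r` the map `L → L`, `u ↦ u (h^i u⁻¹ h^(-i))` is injective (`hfL`: if `u c(u)⁻¹ = u' c(u')⁻¹`, `c` = conjugation by `h^i`, then `u'⁻¹ u` is fixed by `c`), hence bijective (finite), and `u h^i u⁻¹ = (u h^i u⁻¹ h^(-i)) h^i`:
  `∏ l ∈ L, (l h^i)·w = ∏ u ∈ L, (u h^i u⁻¹)·w`.
(d) `1 = ∏ i ∈ range r, A (h^i·w) = A w * ∏ i ∈ Ico 1 r, ∏ u, (u h^i u⁻¹)·w = ∏ u, u·(∏ i ∈ Ico 1 r, h^i·(u⁻¹·w)) = ∏ u, u·(u⁻¹·w)⁻¹ = w^(-card L)`.
So `w ^ card L = 1`, and `orderOf w ∣ gcd (card L, card V) = 1`: `V = ⊥`, contradiction. -/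
theorem fa [Finite G] (L V : Subgroup G) (h : G) (r : ℕ) (hr : r.Prime) (hh : h ^ r = 1)
    (hhL : ∀ l ∈ L, h * l * h⁻¹ ∈ L) (hhV : ∀ v ∈ V, h * v * h⁻¹ ∈ V) (hLV : Nz L V) (hVab : Cz V V) (hV1 : V ≠ ⊥)
    (hfL : ∀ i : ℕ, 0 < i → i < r → ∀ l ∈ L, h ^ i * l = l * h ^ i → l = 1)
    (hfV : ∀ v ∈ V, h * v = v * h → v = 1) (hcop : (Nat.card L).Coprime (Nat.card V)) :
    ∃ v ∈ V, v ≠ 1 ∧ ∀ l ∈ L, l * v = v * l := by
  classical
  by_contra hcon
  push Not at hcon
  letI : CommGroup V :=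
    { (inferInstance : Group V) with mul_comm := fun x y => Subtype.ext (hVab x x.2 y y.2) }
  have : Fintype L := Fintype.ofFinite L
  have hLN : L ≤ Subgroup.normalizer (V : Set G) :=
    fun l hl => Subgroup.mem_normalizer_fintype (fun n hn => hLV l hl n hn)
  have hhN : h ∈ Subgroup.normalizer (V : Set G) :=
    Subgroup.mem_normalizer_fintype (fun n hn => hhV n hn)
  have hhNL : h ∈ Subgroup.normalizer (L : Set G) :=
    Subgroup.mem_normalizer_fintype (fun n hn => hhL n hn)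
  let a : L →* MulAut V := V.normalizerMonoidHom.comp (Subgroup.inclusion hLN)
  let η : MulAut V := V.normalizerMonoidHom ⟨h, hhN⟩
  let c : MulAut L := L.normalizerMonoidHom ⟨h, hhNL⟩
  have ha : ∀ (l : L) (v : V), ((a l v : V) : G) = l * v * (l : G)⁻¹ := fun l v => rfl
  have hηv : ∀ v : V, ((η v : V) : G) = h * v * h⁻¹ := fun v => rfl
  have hcl : ∀ l : L, ((c l : L) : G) = h * l * h⁻¹ := fun l => rfl
  have hci : ∀ (i : ℕ) (l : L), (((c ^ i) l : L) : G) = h ^ i * l * (h ^ i)⁻¹ := by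
    intro i
    induction i with
    | zero => intro l; simp
    | succ i ih =>
      intro l
      rw [pow_succ', MulAut.mul_apply, hcl, ih, pow_succ']
      group
  have key := abs_fa a η c r ?_ ?_ ?_ ?_ ?_ hr.pos
  · obtain ⟨v, hv⟩ := (Subgroup.ne_bot_iff_exists_ne_one).mp hV1
    have h1 := key v
    have h2 : orderOf v ∣ Nat.card L := by
      rw [Nat.card_eq_fintype_card]
      exact orderOf_dvd_of_pow_eq_one h1
    have h3 : orderOf v ∣ Nat.card V := orderOf_dvd_natCard v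
    have h4 : orderOf v ∣ 1 := by
      have := Nat.dvd_gcd h2 h3
      rwa [hcop] at this
    exact hv (orderOf_eq_one_iff.mp (Nat.dvd_one.mp h4))
  · intro l w
    apply Subtype.ext
    rw [hηv, ha, ha, hcl, hηv]
    group
  · show (V.normalizerMonoidHom ⟨h, hhN⟩) ^ r = 1
    rw [← map_pow]
    have h1 : (⟨h, hhN⟩ : Subgroup.normalizer (V : Set G)) ^ r = 1 := Subtype.ext (by simpa using hh)
    rw [h1, map_one]
  · intro i hi0 hir l hl
    have h1 := hci i l
    rw [hl] at h1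
    have h2 := hfL i hi0 hir l l.2 (by
      conv_rhs => rw [h1]
      group)
    exact Subtype.ext h2
  · intro w hw
    have h1 := hηv w
    rw [hw] at h1
    have h2 := hfV w w.2 (by
      conv_rhs => rw [h1]
      group)
    exact Subtype.ext h2
  · intro w hw
    by_contra hw1
    obtain ⟨l, hl, hne⟩ := hcon w w.2 (fun h0 => hw1 (Subtype.ext h0))
    apply hne
    have h1 := ha ⟨l, hl⟩ w
    rw [hw ⟨l, hl⟩] at h1
    conv_rhs => rw [h1]
    simp

end Cfsg.Agent.Lib.H61CmFA
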