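import Cfsg.Agent.Lib.H61CmDefs


set_option autoImplicit false

namespace Cfsg.Agent.Lib.H61CmFix

open Cfsg.Agent.Lib.H61CmDefs

variable {G : Type*} [Group G]

/-- **Fix** (PURE MATHLIB). -/
theorem fix [Finite G] (K : Subgroup G) [hK : K.Normal] (s : ℕ) (hs : s.Prime) (hsK : s ∣ Nat.card K) (y : G) (a : ℕ)
    (hy : orderOf y = s ^ a) : ∃ z ∈ K, z ≠ 1 ∧ z * y = y * z := by
  have : Fact s.Prime := ⟨hs⟩
  have hP : IsPGroup s (Subgroup.zpowers y) := by
    rw [IsPGroup.iff_card]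
    exact ⟨a, by rw [Nat.card_zpowers, hy]⟩
  let _ : MulAction (Subgroup.zpowers y) K :=
    { smul := fun u k => ⟨u * k * (u : G)⁻¹, hK.conj_mem k k.2 u⟩
      one_smul := fun k => Subtype.ext (by
        show ((1 : Subgroup.zpowers y) : G) * k * ((1 : Subgroup.zpowers y) : G)⁻¹ = k
        simp)
      mul_smul := fun u v k => Subtype.ext (by
        show ((u * v : Subgroup.zpowers y) : G) * k * ((u * v : Subgroup.zpowers y) : G)⁻¹
          = (u : G) * ((v : G) * k * (v : G)⁻¹) * (u : G)⁻¹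
        simp [mul_assoc]) }
  have h1 : (1 : K) ∈ MulAction.fixedPoints (Subgroup.zpowers y) K := by
    intro u
    apply Subtype.ext
    show (u : G) * ((1 : K) : G) * (u : G)⁻¹ = ((1 : K) : G)
    simp
  obtain ⟨z, hz, hz1⟩ := hP.exists_fixed_point_of_prime_dvd_card_of_fixed_point K hsK h1
  refine ⟨z, z.2, ?_, ?_⟩
  · intro h
    exact hz1 (Subtype.ext h.symm)
  · have h2 := congrArg Subtype.val (hz ⟨y, Subgroup.mem_zpowers y⟩)
    have h3 : y * (z : G) * y⁻¹ = z := h2
    calc (z : G) * y = (y * (z : G) * y⁻¹) * y := by rw [h3]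
      _ = y * z := by group

end Cfsg.Agent.Lib.H61CmFix
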