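import Cfsg.Agent.Lib.H61CmDefs


set_option autoImplicit false

namespace Cfsg.Agent.Lib.H61CmNilV

open Cfsg.Agent.Lib.H61CmDefs

variable {G : Type*} [Group G]

private theorem sylow_normal [Finite G] (L : Subgroup G) (hL : Group.IsNilpotent ↥L) (p : ℕ) [Fact p.Prime]
    (P : Sylow p L) : (P : Subgroup L).Normal :=
  Sylow.normal_of_normalizerCondition Group.normalizerCondition_of_isNilpotent P

private theorem mem_sylow [Finite G] (L : Subgroup G) (hL : Group.IsNilpotent ↥L) (p : ℕ) [hp : Fact p.Prime]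
    (P : Sylow p L) (y : L) (k : ℕ) (hy : y ^ p ^ k = 1) : y ∈ P := by
  have hn : (P : Subgroup L).Normal := sylow_normal L hL p P
  have hz : IsPGroup p (Subgroup.zpowers y) := by
    obtain ⟨j, _, hj⟩ := (Nat.dvd_prime_pow hp.out).1 (orderOf_dvd_of_pow_eq_one hy)
    exact IsPGroup.of_card (n := j) (by rw [Nat.card_zpowers, hj])
  obtain ⟨Q, hQ⟩ := hz.exists_le_sylow
  have : Q = P := ((Sylow.unique_of_normal P hn).uniq Q).trans ((Sylow.unique_of_normal P hn).uniq P).symm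
  rw [← this]
  exact hQ (Subgroup.mem_zpowers y)

theorem nilV [Finite G] (L : Subgroup G) (hL : Group.IsNilpotent ↥L) (q : ℕ) [hq : Fact q.Prime] (hLq : ¬ IsPGroup q L) :
    ∃ V : Subgroup G, V ≤ L ∧ V ≠ ⊥ ∧ Cz V V ∧ (Nat.card V).Coprime q ∧
      (∀ g : G, (∀ l ∈ L, g * l * g⁻¹ ∈ L) → ∀ v ∈ V, g * v * g⁻¹ ∈ V) ∧
      (∀ l ∈ L, (∃ k : ℕ, orderOf l = q ^ k) → ∀ v ∈ V, l * v = v * l) := by
  -- a prime `s ≠ q` dividing the order
  have hs : ∃ s : ℕ, s.Prime ∧ s ∣ Nat.card L ∧ s ≠ q := by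
    by_contra hcon
    push Not at hcon
    apply hLq
    exact IsPGroup.of_card (Nat.eq_prime_pow_of_unique_prime_dvd Nat.card_pos.ne'
      (fun {d} hd hdvd => hcon d hd hdvd))
  obtain ⟨s, hsp, hsdvd, hsq⟩ := hs
  have : Fact s.Prime := ⟨hsp⟩
  obtain ⟨T⟩ : Nonempty (Sylow s L) := inferInstance
  obtain ⟨A⟩ : Nonempty (Sylow q L) := inferInstance
  have hTn := sylow_normal L hL s T
  have hAn := sylow_normal L hL q A
  have hTne : (T : Subgroup L) ≠ ⊥ := T.ne_bot_of_dvd_card hsdvd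
  -- description of `T`
  have hT : ∀ y : L, y ∈ T ↔ ∃ k : ℕ, y ^ s ^ k = 1 := by
    intro y
    constructor
    · intro hy
      obtain ⟨k, hk⟩ := T.2 ⟨y, hy⟩
      exact ⟨k, congrArg Subtype.val hk⟩
    · rintro ⟨k, hk⟩
      exact mem_sylow L hL s T y k hk
  set T' : Subgroup G := (T : Subgroup L).map L.subtype with hT'
  have hT'mem : ∀ y : G, y ∈ T' ↔ y ∈ L ∧ ∃ k : ℕ, y ^ s ^ k = 1 := by
    intro y
    constructor
    · rintro ⟨t, ht, rfl⟩
      obtain ⟨k, hk⟩ := (hT t).1 ht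
      exact ⟨t.2, k, by simpa using congrArg Subtype.val hk⟩
    · rintro ⟨hyL, k, hk⟩
      exact ⟨⟨y, hyL⟩, (hT _).2 ⟨k, Subtype.ext (by simpa using hk)⟩, rfl⟩
  have hT'p : IsPGroup s T' := by
    intro y
    obtain ⟨_, k, hk⟩ := (hT'mem y.1).1 y.2
    exact ⟨k, Subtype.ext (by simpa using hk)⟩
  have hT'ne : Nontrivial T' := by
    rw [Subgroup.nontrivial_iff_ne_bot]
    intro h0
    apply hTne
    rw [hT'] at h0
    exact (Subgroup.map_eq_bot_iff_of_injective _ L.subtype_injective).1 h0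
  refine ⟨T' ⊓ Subgroup.centralizer (T' : Set G), ?_, ?_, ?_, ?_, ?_, ?_⟩
  · intro v hv
    exact ((hT'mem v).1 hv.1).1
  · have := hT'p.center_nontrivial
    obtain ⟨z, hz⟩ := exists_ne (1 : Subgroup.center T')
    intro h0
    apply hz
    have hzV : (z.1.1 : G) ∈ T' ⊓ Subgroup.centralizer (T' : Set G) := by
      refine Subgroup.mem_inf.2 ⟨z.1.2, ?_⟩
      rw [Subgroup.mem_centralizer_iff]
      intro t ht
      have := Subgroup.mem_center_iff.1 z.2 ⟨t, ht⟩
      exact congrArg Subtype.val this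
    rw [h0, Subgroup.mem_bot] at hzV
    exact Subtype.ext (Subtype.ext hzV)
  · intro a ha b hb
    exact ((Subgroup.mem_centralizer_iff.1 hb.2) a ha.1)
  · have hVp : IsPGroup s ↥(T' ⊓ Subgroup.centralizer (T' : Set G)) := hT'p.to_le inf_le_left
    obtain ⟨k, hk⟩ := IsPGroup.iff_card.1 hVp
    rw [hk]
    exact Nat.Coprime.pow_left k ((Nat.coprime_primes hsp hq.out).2 hsq)
  · intro g hg v hv
    -- also `g⁻¹` maps `L` into `L`
    have hginv : ∀ l ∈ L, g⁻¹ * l * g ∈ L := by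
      intro l hl
      let f : L → L := fun y => ⟨g * y.1 * g⁻¹, hg y.1 y.2⟩
      have hf : Function.Injective f := by
        intro y y' hyy
        have : g * y.1 * g⁻¹ = g * y'.1 * g⁻¹ := congrArg Subtype.val hyy
        exact Subtype.ext (mul_left_cancel (mul_right_cancel this))
      obtain ⟨y, hy⟩ := (Finite.injective_iff_surjective.1 hf) ⟨l, hl⟩
      have h1 : g * y.1 * g⁻¹ = l := congrArg Subtype.val hy
      rw [← h1]
      have : g⁻¹ * (g * y.1 * g⁻¹) * g = y.1 := by group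
      rw [this]; exact y.2
    have hconj : ∀ t ∈ T', g * t * g⁻¹ ∈ T' := by
      intro t ht
      obtain ⟨h1, k, hk⟩ := (hT'mem t).1 ht
      refine (hT'mem _).2 ⟨hg t h1, k, ?_⟩
      rw [conj_pow, hk]; group
    have hconj' : ∀ t ∈ T', g⁻¹ * t * g ∈ T' := by
      intro t ht
      obtain ⟨h1, k, hk⟩ := (hT'mem t).1 ht
      refine (hT'mem _).2 ⟨hginv t h1, k, ?_⟩
      have := conj_pow (a := g⁻¹) (b := t) (i := s ^ k)
      rw [inv_inv] at this
      rw [this, hk]; group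
    refine Subgroup.mem_inf.2 ⟨hconj v hv.1, ?_⟩
    rw [Subgroup.mem_centralizer_iff]
    intro t ht
    have h1 := (Subgroup.mem_centralizer_iff.1 hv.2) _ (hconj' t ht)
    calc t * (g * v * g⁻¹) = g * ((g⁻¹ * t * g) * v) * g⁻¹ := by group
      _ = g * (v * (g⁻¹ * t * g)) * g⁻¹ := by rw [h1]
      _ = g * v * g⁻¹ * t := by group
  · rintro l hl ⟨k, hk⟩ v hv
    have hlA : (⟨l, hl⟩ : L) ∈ A := by
      apply mem_sylow L hL q A _ k
      apply Subtype.ext
      have : l ^ q ^ k = 1 := by rw [← hk]; exact pow_orderOf_eq_one l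
      simpa using this
    obtain ⟨t, ht, htv⟩ := hv.1
    have hdis : Disjoint (A : Subgroup L) (T : Subgroup L) :=
      IsPGroup.disjoint_of_ne q s (Ne.symm hsq) _ _ A.2 T.2
    have hc := Subgroup.commute_of_normal_of_disjoint _ _ hAn hTn hdis _ _ hlA ht
    have h2 : l * (t : G) = (t : G) * l := congrArg Subtype.val hc.eq
    rw [← htv]
    exact h2

end Cfsg.Agent.Lib.H61CmNilV
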