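import Cfsg.Agent.Lib.H61CmDefs
import Cfsg.Agent.Lib.H61CmF2
import Cfsg.Agent.Lib.H61CmF3
import Cfsg.Agent.Lib.H61CmElt
import Cfsg.Agent.Lib.H61CmFix

set_option autoImplicit false

namespace Cfsg.Agent.Lib.H61CmStart

open Cfsg.Agent.Lib.H61CmDefs

variable {G : Type*} [Group G]

/-- **Start**. -/
theorem start [Finite G] (K : Subgroup G) [K.Normal] (hc : Cam K) (n : G) (hn : n ∈ K) (hn1 : n ≠ 1) (c : G)
    (hcK : c ∉ K) (hcn : c * n = n * c) : ∃ q : ℕ, q.Prime ∧ q ∣ Nat.card K ∧ q ∣ K.index := by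
  have hc1 : (QuotientGroup.mk c : G ⧸ K) ≠ 1 := by
    intro h
    exact hcK ((QuotientGroup.eq_one_iff c).1 h)
  have ho1 : orderOf (QuotientGroup.mk c : G ⧸ K) ≠ 1 := by
    intro h
    exact hc1 (orderOf_eq_one_iff.1 h)
  set q := (orderOf (QuotientGroup.mk c : G ⧸ K)).minFac with hqdef
  have hq : q.Prime := Nat.minFac_prime ho1
  have hqo : q ∣ orderOf (QuotientGroup.mk c : G ⧸ K) := Nat.minFac_dvd _
  have hqi : q ∣ K.index := by
    rw [Subgroup.index_eq_card]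
    exact hqo.trans (orderOf_dvd_natCard _)
  obtain ⟨a, m, hqm, hom⟩ := Nat.exists_eq_pow_mul_and_not_dvd (orderOf_pos c).ne' q hq.ne_one
  have hm0 : m ≠ 0 := by
    rintro rfl
    exact hqm (dvd_zero _)
  have hx0 : orderOf (c ^ m) = q ^ a := by
    rw [orderOf_pow_of_dvd hm0 (hom ▸ Dvd.intro_left _ rfl), hom]
    exact Nat.mul_div_cancel _ (Nat.pos_of_ne_zero hm0)
  have hxK : c ^ m ∉ K := by
    intro h
    have h1 : (QuotientGroup.mk c : G ⧸ K) ^ m = 1 := by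
      rw [← QuotientGroup.mk_pow]
      exact (QuotientGroup.eq_one_iff _).2 h
    exact hqm (hqo.trans (orderOf_dvd_of_pow_eq_one h1))
  have hcomm : c ^ m * n = n * c ^ m := ((Commute.pow_left (show Commute c n from hcn) m)).eq
  obtain ⟨b, hb⟩ := H61CmF2.f2 K hc q hq (c ^ m) hxK a hx0 n hn hcomm
  refine ⟨q, hq, ?_, hqi⟩
  have hb0 : b ≠ 0 := by
    rintro rfl
    rw [pow_zero] at hb
    exact hn1 (orderOf_eq_one_iff.1 hb)
  have h1 : orderOf n ∣ Nat.card K := Subgroup.orderOf_dvd_natCard K hn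
  exact (hb ▸ dvd_pow_self q hb0 : q ∣ orderOf n).trans h1

/-- **PrimeL**. -/
theorem primeL [Finite G] (K : Subgroup G) [K.Normal] (hc : Cam K) (H : Subgroup G) (hHK : H ⊔ K = ⊤) (s : ℕ)
    (hs : s.Prime) (h1 : s ∣ K.index) (h2 : s ∣ Nat.card K) :
    ∃ z ∈ H ⊓ K, z ≠ 1 ∧ ∃ b : ℕ, orderOf z = s ^ b := by
  obtain ⟨y, hyH, hyK, _, a, hya⟩ := H61CmElt.elt K H hHK s hs h1
  obtain ⟨z, hzK, hz1, hzy⟩ := H61CmFix.fix K s hs h2 y a hya
  exact ⟨z, ⟨H61CmF3.f3 K hc H hHK y hyH hyK z hzy, hzK⟩, hz1, H61CmF2.f2 K hc s hs y hyK a hya z hzK hzy.symm⟩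

end Cfsg.Agent.Lib.H61CmStart
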