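import Cfsg.Agent.Lib.H61CmDefs
import Cfsg.Agent.Lib.H61CmAlpha
import Cfsg.Agent.Lib.H61CmNilV
import Cfsg.Agent.Lib.H61CmFA
import Cfsg.Agent.Lib.H61CmStart

set_option autoImplicit false

namespace Cfsg.Agent.Lib.H61CmS8

open Cfsg.Agent.Lib.H61CmDefs

variable {G : Type*} [Group G]

theorem orderOf_of_isPGroup (q : ℕ) [Fact q.Prime] (Q : Subgroup G) (hQ : IsPGroup q Q) (g : G) (hg : g ∈ Q) :
    ∃ k : ℕ, orderOf g = q ^ k := by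
  obtain ⟨k, hk⟩ := (IsPGroup.iff_orderOf.1 hQ) ⟨g, hg⟩
  exact ⟨k, by rw [← hk, Subgroup.orderOf_mk]⟩

/-- **S8**. -/
theorem s8 [Finite G] (K : Subgroup G) [K.Normal] (hc : Cam K) (H : Subgroup G)
    (hL : Group.IsNilpotent ↥(H ⊓ K)) (q : ℕ) [Fact q.Prime]
    (Q : Subgroup G) (hQH : Q ≤ H) (hQ : IsPGroup q Q) (hQK : ¬ Q ≤ K) (hQ0 : Q ⊓ K ≠ ⊥)
    (hidx : ∀ k : ℕ, q ^ k ∣ K.index → q ^ k * Nat.card ↥(Q ⊓ K) ≤ Nat.card Q) :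
    IsPGroup q ↥(H ⊓ K) := by
  by_contra hLq
  obtain ⟨V, hVL, hV1, hVab, hVq, hinv, hcen⟩ := H61CmNilV.nilV (H ⊓ K) hL q hLq
  refine H61CmAlpha.alpha K hc q Q hQ hQK hQ0 hidx V (hVL.trans inf_le_right) hV1 hVab hVq ?_ ?_
  · intro g hg v hv
    refine hinv g ?_ v hv
    intro l hl
    exact ⟨H.mul_mem (H.mul_mem (hQH hg) hl.1) (H.inv_mem (hQH hg)), ‹K.Normal›.conj_mem l hl.2 g⟩
  · intro l hl v hv
    exact hcen l ⟨hQH hl.1, hl.2⟩ (orderOf_of_isPGroup q Q hQ l hl.1) v hv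

theorem eq_one_of_two_orders (r q : ℕ) (hr : r.Prime) (hq : q.Prime) (hrq : r ≠ q) (z : G) (a b : ℕ)
    (h1 : orderOf z = r ^ a) (h2 : orderOf z = q ^ b) : z = 1 := by
  rw [← orderOf_eq_one_iff]
  have hcop : (r ^ a).Coprime (q ^ b) := Nat.Coprime.pow _ _ ((Nat.coprime_primes hr hq).2 hrq)
  rw [← h1, ← h2] at hcop
  exact (Nat.coprime_self _).1 hcop

/-- **S9**. -/
theorem s9 [Finite G] (K : Subgroup G) [K.Normal] (hc : Cam K) (H : Subgroup G) (hHK : H ⊔ K = ⊤)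
    (q : ℕ) [Fact q.Prime] (hLq : IsPGroup q ↥(H ⊓ K))
    (Q : Subgroup G) (hQH : Q ≤ H) (hQ : IsPGroup q Q) (hQK : ¬ Q ≤ K) (hQ0 : Q ⊓ K ≠ ⊥)
    (hidx : ∀ k : ℕ, q ^ k ∣ K.index → q ^ k * Nat.card ↥(Q ⊓ K) ≤ Nat.card Q)
    (r : ℕ) (hr : r.Prime) (hrq : r ≠ q) (hrK : r ∣ K.index) (p : ℕ) (hp : p.Prime) (hpq : p ≠ q)
    (V : Subgroup G) (hVK : V ≤ K) (hV1 : V ≠ ⊥) (hVab : Cz V V) (hVp : IsPGroup p V) (hHV : Nz H V) : False := by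
  have hq : q.Prime := Fact.out
  have : Fact p.Prime := ⟨hp⟩
  -- r does not divide card K
  have hrK' : ¬ r ∣ Nat.card K := by
    intro h
    obtain ⟨z, hzL, hz1, b, hb⟩ := H61CmStart.primeL K hc H hHK r hr hrK h
    obtain ⟨k, hk⟩ := orderOf_of_isPGroup q (H ⊓ K) hLq z hzL
    exact hz1 (eq_one_of_two_orders r q hr hq hrq z b k hb hk)
  -- p ≠ r
  obtain ⟨v0, hv0, hv01⟩ : ∃ v ∈ V, v ≠ 1 := by
    by_contra hcon
    push Not at hcon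
    exact hV1 ((Subgroup.eq_bot_iff_forall V).2 hcon)
  have hpr : p ≠ r := by
    rintro rfl
    obtain ⟨k, hk⟩ := orderOf_of_isPGroup p V hVp v0 hv0
    have hk0 : k ≠ 0 := by
      rintro rfl
      rw [pow_zero] at hk
      exact hv01 (orderOf_eq_one_iff.1 hk)
    exact hrK' ((hk ▸ dvd_pow_self p hk0 : p ∣ orderOf v0).trans (Subgroup.orderOf_dvd_natCard K (hVK hv0)))
  obtain ⟨h, hhH, hhK, hhr, a, ha⟩ := H61CmElt.elt K H hHK r hr hrK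
  have hh1 : h ^ r = 1 := by
    obtain ⟨k, hk⟩ := orderOf_of_isPGroup q (H ⊓ K) hLq (h ^ r) ⟨H.pow_mem hhH r, hhr⟩
    have h2 : orderOf (h ^ r) ∣ r ^ a := ha ▸ orderOf_pow_dvd r
    obtain ⟨j, _, hj⟩ := (Nat.dvd_prime_pow hr).1 h2
    exact eq_one_of_two_orders r q hr hq hrq _ j k hj hk
  have hpow : ∀ i : ℕ, 0 < i → i < r → h ^ i ∉ K := by
    intro i hi0 hir hiK
    have hcop : Nat.Coprime i r := (Nat.coprime_of_lt_prime hi0.ne' hir hr).symm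
    have : h ^ (Nat.gcd i r) ∈ K := by
      have h3 : (h ^ (Nat.gcd i r : ℕ) : G) = h ^ ((Nat.gcd i r : ℕ) : ℤ) := (zpow_natCast h _).symm
      rw [h3, Nat.gcd_eq_gcd_ab, zpow_add, zpow_mul, zpow_mul, zpow_natCast, zpow_natCast]
      exact K.mul_mem (K.zpow_mem hiK _) (K.zpow_mem hhr _)
    rw [hcop, pow_one] at this
    exact hhK this
  have hpowo : ∀ i : ℕ, ∃ j : ℕ, orderOf (h ^ i) = r ^ j := by
    intro i
    have h2 : orderOf (h ^ i) ∣ r ^ a := ha ▸ orderOf_pow_dvd i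
    obtain ⟨j, _, hj⟩ := (Nat.dvd_prime_pow hr).1 h2
    exact ⟨j, hj⟩
  have hnormL : ∀ g ∈ H, ∀ l ∈ H ⊓ K, g * l * g⁻¹ ∈ H ⊓ K := by
    intro g hg l hl
    exact ⟨H.mul_mem (H.mul_mem hg hl.1) (H.inv_mem hg), ‹K.Normal›.conj_mem l hl.2 g⟩
  have hcop : (Nat.card ↥(H ⊓ K)).Coprime (Nat.card V) := by
    obtain ⟨k1, hk1⟩ := IsPGroup.exists_card_eq hLq
    obtain ⟨k2, hk2⟩ := IsPGroup.exists_card_eq hVp
    rw [hk1, hk2]
    exact Nat.Coprime.pow _ _ ((Nat.coprime_primes hq hp).2 hpq.symm)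
  obtain ⟨v, hvV, hv1, hvL⟩ := H61CmFA.fa (H ⊓ K) V h r hr hh1 (hnormL h hhH) (hHV h hhH)
    (fun l hl v hv => hHV l hl.1 v hv) hVab hV1
    (by
      intro i hi0 hir l hl hcomm
      obtain ⟨j, hj⟩ := hpowo i
      obtain ⟨b, hb⟩ := H61CmF2.f2 K hc r hr (h ^ i) (hpow i hi0 hir) j hj l hl.2 hcomm
      obtain ⟨k, hk⟩ := orderOf_of_isPGroup q (H ⊓ K) hLq l hl
      exact eq_one_of_two_orders r q hr hq hrq l b k hb hk)
    (by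
      intro v hv hcomm
      obtain ⟨b, hb⟩ := H61CmF2.f2 K hc r hr h hhK a ha v (hVK hv) hcomm
      obtain ⟨k, hk⟩ := orderOf_of_isPGroup p V hVp v hv
      exact eq_one_of_two_orders r p hr hp hpr.symm v b k hb hk)
    hcop
  -- V₂
  let V2 : Subgroup G := V ⊓ Subgroup.centralizer ((H ⊓ K : Subgroup G) : Set G)
  have hV2mem : ∀ w : G, w ∈ V2 ↔ w ∈ V ∧ ∀ l ∈ H ⊓ K, l * w = w * l := by
    intro w
    simp only [V2, Subgroup.mem_inf, Subgroup.mem_centralizer_iff, SetLike.mem_coe]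
  refine H61CmAlpha.alpha K hc q Q hQ hQK hQ0 hidx V2 (inf_le_left.trans hVK) ?_ ?_ ?_ ?_ ?_
  · intro hbot
    have : v ∈ V2 := (hV2mem v).2 ⟨hvV, hvL⟩
    rw [hbot, Subgroup.mem_bot] at this
    exact hv1 this
  · intro x hx y hy
    exact hVab x ((hV2mem x).1 hx).1 y ((hV2mem y).1 hy).1
  · obtain ⟨k2, hk2⟩ := IsPGroup.exists_card_eq (hVp.to_le (inf_le_left : V2 ≤ V))
    rw [hk2]
    exact Nat.Coprime.pow_left _ ((Nat.coprime_primes hp hq).2 hpq)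
  · intro g hg w hw
    obtain ⟨hwV, hwL⟩ := (hV2mem w).1 hw
    refine (hV2mem _).2 ⟨hHV g (hQH hg) w hwV, ?_⟩
    intro l hl
    have h1 := hnormL g⁻¹ (H.inv_mem (hQH hg)) l hl
    rw [inv_inv] at h1
    have h2 := hwL _ h1
    calc l * (g * w * g⁻¹) = g * ((g⁻¹ * l * g) * w) * g⁻¹ := by group
      _ = g * (w * (g⁻¹ * l * g)) * g⁻¹ := by rw [h2]
      _ = g * w * g⁻¹ * l := by group
  · intro l hl w hw
    exact ((hV2mem w).1 hw).2 l ⟨hQH hl.1, hl.2⟩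

end Cfsg.Agent.Lib.H61CmS8
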