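import Cfsg.Agent.Lib.H61CmDefs


set_option autoImplicit false

namespace Cfsg.Agent.Lib.H61CmSupp

open Cfsg.Agent.Lib.H61CmDefs

variable {G : Type*} [Group G]

/-- **Supp** (minimal supplement, PURE MATHLIB).  Choose `H ≤ N` with `H ⊔ K = ⊤` of minimal cardinality (finite; `N` itself qualifies).
Work in `↥H`, `L := K.subgroupOf H` (normal).  For every coatom `M` of `Subgroup ↥H`: `L ≤ M`; otherwise `M ⊔ L = ⊤` (`IsCoatom`), hence
`M.map H.subtype ⊔ K ≥ (M ⊔ L).map H.subtype ⊔ K = H ⊔ K = ⊤` with `M.map H.subtype < H`, `≤ N`: contradiction with minimality.  So `L ≤ frattini ↥H` (`frattini = sInf of coatoms`: `Order.radical`, `le_sInf`/`le_iInf`),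
which is nilpotent (`frattini_nilpotent`); subgroups of nilpotent groups are nilpotent (`Subgroup.isNilpotent`, via `Subgroup.inclusion` injective: `Group.isNilpotent_of_injective`...);
`↥(H ⊓ K) ≃* ↥L` (`Subgroup.subgroupOfEquivOfLe`/`Subgroup.inf_subgroupOf_...`). -/
theorem supp [Finite G] (K : Subgroup G) [K.Normal] (N : Subgroup G) (hN : N ⊔ K = ⊤) :
    ∃ H : Subgroup G, H ≤ N ∧ H ⊔ K = ⊤ ∧ Group.IsNilpotent ↥(H ⊓ K) := by
  have key : ∀ n : ℕ, ∀ N : Subgroup G, Nat.card N = n → N ⊔ K = ⊤ →
      ∃ H : Subgroup G, H ≤ N ∧ H ⊔ K = ⊤ ∧ Group.IsNilpotent ↥(H ⊓ K) := by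
    intro n
    induction n using Nat.strong_induction_on with
    | _ n ih =>
      intro N hcard hN
      by_cases hex : ∃ M : Subgroup G, M < N ∧ M ⊔ K = ⊤
      · obtain ⟨M, hMN, hMK⟩ := hex
        have hlt : Nat.card M < n := by
          rw [← hcard]
          exact Set.ncard_lt_ncard (s := (M : Set G)) (t := (N : Set G)) hMN (Set.toFinite _)
        obtain ⟨H, hH, hHK, hnil⟩ := ih _ hlt M rfl hMK
        exact ⟨H, le_trans hH hMN.le, hHK, hnil⟩
      · refine ⟨N, le_rfl, hN, ?_⟩
        have hLfr : K.subgroupOf N ≤ frattini ↥N := by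
          unfold frattini Order.radical
          refine le_iInf₂ ?_
          intro M hM
          by_contra hnle
          have hM' : IsCoatom M := hM
          have htop : M ⊔ K.subgroupOf N = ⊤ := by
            apply hM'.2
            exact lt_of_le_of_ne le_sup_left (fun h => hnle (by rw [h]; exact le_sup_right))
          apply hex
          refine ⟨M.map N.subtype, ?_, ?_⟩
          · refine lt_of_le_of_ne ?_ ?_
            · rintro _ ⟨m, _, rfl⟩; exact m.2
            · intro h
              apply hM'.1
              rw [eq_top_iff]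
              intro y _
              have hy : (y : G) ∈ M.map N.subtype := by rw [h]; exact y.2
              obtain ⟨m, hm, hmy⟩ := hy
              have : m = y := Subtype.ext hmy
              rw [← this]; exact hm
          · rw [eq_top_iff, ← hN]
            refine sup_le ?_ le_sup_right
            intro y hy
            have hy' : (⟨y, hy⟩ : N) ∈ M ⊔ K.subgroupOf N := by rw [htop]; trivial
            have h3 : y ∈ (M ⊔ K.subgroupOf N).map N.subtype := ⟨⟨y, hy⟩, hy', rfl⟩
            rw [Subgroup.map_sup] at h3
            have hle : M.map N.subtype ⊔ (K.subgroupOf N).map N.subtype ≤ M.map N.subtype ⊔ K := by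
              refine sup_le_sup le_rfl ?_
              rintro _ ⟨k, hk, rfl⟩
              exact Subgroup.mem_subgroupOf.1 hk
            exact hle h3
        haveI : Group.IsNilpotent ↥(frattini ↥N) := frattini_nilpotent
        -- embed
        let f : ↥(N ⊓ K) →* ↥(frattini ↥N) :=
          { toFun := fun y => ⟨⟨y.1, y.2.1⟩, hLfr (Subgroup.mem_subgroupOf.2 y.2.2)⟩
            map_one' := rfl
            map_mul' := fun _ _ => rfl }
        have hf : Function.Injective f := by
          intro a b hab
          apply Subtype.ext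
          exact congrArg (fun z : ↥(frattini ↥N) => ((z : ↥N) : G)) hab
        have hr : Group.IsNilpotent ↥f.range := inferInstance
        exact Group.nilpotent_of_mulEquiv (MonoidHom.ofInjective hf).symm
  exact key _ N rfl hN

end Cfsg.Agent.Lib.H61CmSupp
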