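import Cfsg.Agent.Lib.H61CmDefs


set_option autoImplicit false

namespace Cfsg.Agent.Lib.H61CmSyl

open Cfsg.Agent.Lib.H61CmDefs

variable {G : Type*} [Group G]

/-- **Syl** (PURE MATHLIB).  `Q := (P : Subgroup ↥H).map H.subtype` for a Sylow `q`-subgroup `P` of `↥H`; `card Q = q ^ v_q(card H)` (`Sylow.card_eq_multiplicity`).
`card H = card (H ⊓ K) * K.index`: `K.relIndex H = K.index` (`Subgroup.relIndex_sup_right`, `hHK`, `Subgroup.relIndex_top_right`), `Subgroup.inf_relIndex_right`/`relIndex_mul_card`.  Put `a = v_q(card (H ⊓ K))`, `b = v_q(K.index)`: `v_q(card H) = a + b`.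
(1) `Q ≤ K` would give `card Q ∣ card (H ⊓ K)`, `a + b ≤ a`, but `b ≥ 1`.  (2) `Q ⊓ K` is a `q`-subgroup of `H ⊓ K`: `card (Q ⊓ K) ∣ q^a`-part, so `≤ q^a`; `q^k ∣ K.index` ⇒ `k ≤ b`: `q^k * card (Q ⊓ K) ≤ q^(a+b)`.
(3) `Q ⊔ (H ⊓ K)` is a subgroup of `H` of order `card Q * card (H ⊓ K) / card (Q ⊓ K)` (`H ⊓ K` is normalized by `Q`; `Subgroup.card_mul_eq...`/`Nat.card` of product `Subgroup.card_sup_mul_card_inf`-like), dividing `card H`:
 `v_q(card (Q ⊓ K)) ≥ a ≥ 1`.  (Or: `P ⊓ L` is a Sylow subgroup of the normal subgroup `L = K.subgroupOf H`: `Sylow.subtype`/`Sylow.ofCard`, `IsPGroup`...) -/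
theorem syl [Finite G] (K : Subgroup G) [K.Normal] (H : Subgroup G) (hHK : H ⊔ K = ⊤) (q : ℕ) [Fact q.Prime]
    (hq1 : q ∣ K.index) (hq2 : q ∣ Nat.card ↥(H ⊓ K)) :
    ∃ Q : Subgroup G, Q ≤ H ∧ IsPGroup q Q ∧ ¬ Q ≤ K ∧ Q ⊓ K ≠ ⊥ ∧
      ∀ k : ℕ, q ^ k ∣ K.index → q ^ k * Nat.card ↥(Q ⊓ K) ≤ Nat.card Q := by
  have hq : q.Prime := Fact.out
  have hrel : K.relIndex H = K.index := by
    rw [← Subgroup.relIndex_sup_right, hHK, Subgroup.relIndex_top_right]
  have hcardH : Nat.card H = K.index * Nat.card ↥(H ⊓ K) := by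
    have h1 := Subgroup.relIndex_mul_relIndex ⊥ (H ⊓ K) H bot_le inf_le_left
    rw [Subgroup.relIndex_bot_left, Subgroup.relIndex_bot_left, Subgroup.inf_relIndex_left,
      hrel] at h1
    rw [← h1, Nat.mul_comm]
  obtain ⟨y, hy⟩ := exists_prime_orderOf_dvd_card' q hq2
  have hyH : (y : G) ∈ H := y.2.1
  have hyK : (y : G) ∈ K := y.2.2
  have hyo : orderOf (⟨(y : G), hyH⟩ : H) = q := by
    rw [Subgroup.orderOf_mk, Subgroup.orderOf_coe, hy]
  have hzp : IsPGroup q (Subgroup.zpowers (⟨(y : G), hyH⟩ : H)) := by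
    apply IsPGroup.of_card (n := 1)
    rw [Nat.card_zpowers, hyo, pow_one]
  obtain ⟨P, hP⟩ := hzp.exists_le_sylow
  have hcQ : Nat.card ↥((P : Subgroup H).map H.subtype) = Nat.card (P : Subgroup H) :=
    Subgroup.card_map_of_injective H.subtype_injective
  have hPidx : Nat.card (P : Subgroup H) * (P : Subgroup H).index = Nat.card H :=
    (P : Subgroup H).card_mul_index
  have hnd : ¬ q ∣ (P : Subgroup H).index := P.not_dvd_index
  have hQH : (P : Subgroup H).map H.subtype ≤ H := Subgroup.map_subtype_le _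
  have hQp : IsPGroup q ↥((P : Subgroup H).map H.subtype) := P.isPGroup'.map H.subtype
  have hcPpos : 0 < Nat.card (P : Subgroup H) := Nat.card_pos
  refine ⟨(P : Subgroup H).map H.subtype, hQH, hQp, ?_, ?_, ?_⟩
  · intro hQK
    have hle : (P : Subgroup H).map H.subtype ≤ H ⊓ K := le_inf hQH hQK
    obtain ⟨c, hc⟩ := Subgroup.card_dvd_of_le hle
    rw [hcQ] at hc
    rw [hcardH, hc] at hPidx
    have h2 : (P : Subgroup H).index = K.index * c := by
      apply Nat.eq_of_mul_eq_mul_left hcPpos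
      rw [hPidx]
      ring
    exact hnd (h2 ▸ Dvd.dvd.mul_right hq1 c)
  · intro hbot
    have hmem : (y : G) ∈ (P : Subgroup H).map H.subtype ⊓ K := by
      refine ⟨Subgroup.mem_map.2 ⟨⟨(y : G), hyH⟩, hP (Subgroup.mem_zpowers _), rfl⟩, hyK⟩
    rw [hbot, Subgroup.mem_bot] at hmem
    have hy1 : y = 1 := Subtype.ext hmem
    rw [hy1, orderOf_one] at hy
    exact hq.one_lt.ne hy
  · intro k hk
    have hp2 : IsPGroup q ↥((P : Subgroup H).map H.subtype ⊓ K) := hQp.to_le inf_le_left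
    obtain ⟨c, hc⟩ := IsPGroup.iff_card.1 hp2
    have hle : (P : Subgroup H).map H.subtype ⊓ K ≤ H ⊓ K := inf_le_inf_right K hQH
    have h1 : q ^ k * Nat.card ↥((P : Subgroup H).map H.subtype ⊓ K) ∣ Nat.card H := by
      rw [hcardH]
      exact Nat.mul_dvd_mul hk (Subgroup.card_dvd_of_le hle)
    rw [← hPidx] at h1
    have hcop : (q ^ k * Nat.card ↥((P : Subgroup H).map H.subtype ⊓ K)).Coprime
        (P : Subgroup H).index := by
      rw [hc, ← pow_add]
      exact Nat.Coprime.pow_left _ ((Nat.Prime.coprime_iff_not_dvd hq).2 hnd)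
    have h2 := hcop.dvd_of_dvd_mul_right h1
    rw [hcQ]
    exact Nat.le_of_dvd hcPpos h2

end Cfsg.Agent.Lib.H61CmSyl
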