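import Cfsg.Agent.Lib.H61CmDefs
import Cfsg.Agent.Lib.H61CmS8
import Cfsg.Agent.Lib.H61CmSupp
import Cfsg.Agent.Lib.H61CmSyl

set_option autoImplicit false

namespace Cfsg.Agent.Lib.H61CmMain

open Cfsg.Agent.Lib.H61CmDefs

variable {G : Type*} [Group G]

theorem exists_other_prime (n q : ℕ) (hq : q.Prime) (hqn : q ∣ n) (hn0 : n ≠ 0) (hn : ¬ IsPrimePow n) :
    ∃ r : ℕ, r.Prime ∧ r ≠ q ∧ r ∣ n := by
  by_contra hcon
  push Not at hcon
  have h1 : n = q ^ n.primeFactorsList.length :=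
    Nat.eq_prime_pow_of_unique_prime_dvd hn0 (fun {d} hd hdn => by
      by_contra hdq
      exact hcon d hd hdq hdn)
  apply hn
  rw [isPrimePow_nat_iff]
  refine ⟨q, n.primeFactorsList.length, hq, ?_, h1.symm⟩
  rcases Nat.eq_zero_or_pos n.primeFactorsList.length with h0 | h0
  · rw [h0, pow_zero] at h1
    rw [h1] at hqn
    exact absurd (Nat.dvd_one.1 hqn) hq.ne_one
  · exact h0

/-- centre of a nontrivial `p`-subgroup. -/
theorem zp [Finite G] (p : ℕ) [Fact p.Prime] (P : Subgroup G) (hP : IsPGroup p P) (hP1 : P ≠ ⊥) :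
    ∃ V : Subgroup G, V ≤ P ∧ V ≠ ⊥ ∧ Cz V V ∧ IsPGroup p V ∧
      ∀ g ∈ Subgroup.normalizer (P : Set G), ∀ v ∈ V, g * v * g⁻¹ ∈ V := by
  refine ⟨P ⊓ Subgroup.centralizer (P : Set G), inf_le_left, ?_, ?_, hP.to_le inf_le_left, ?_⟩
  · have : Nontrivial ↥P := (Subgroup.nontrivial_iff_ne_bot P).2 hP1
    have := hP.center_nontrivial
    obtain ⟨z, hz⟩ := exists_ne (1 : ↥(Subgroup.center ↥P))
    intro hbot
    have hmem : ((z : ↥P) : G) ∈ P ⊓ Subgroup.centralizer (P : Set G) := by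
      refine Subgroup.mem_inf.2 ⟨(z : ↥P).2, ?_⟩
      rw [Subgroup.mem_centralizer_iff]
      intro x hx
      have := (Subgroup.mem_center_iff.1 z.2) ⟨x, hx⟩
      exact congrArg Subtype.val this
    rw [hbot, Subgroup.mem_bot] at hmem
    apply hz
    ext
    exact hmem
  · intro a ha b hb
    exact ((Subgroup.mem_centralizer_iff.1 hb.2) a ha.1)
  · intro g hg v hv
    have hg' := Subgroup.mem_normalizer_iff.1 hg
    refine Subgroup.mem_inf.2 ⟨(hg' v).1 hv.1, ?_⟩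
    rw [Subgroup.mem_centralizer_iff]
    intro x hx
    have hx' : g⁻¹ * x * g ∈ P := by
      rw [hg']
      have : g * (g⁻¹ * x * g) * g⁻¹ = x := by group
      rw [this]
      exact hx
    have h2 := (Subgroup.mem_centralizer_iff.1 hv.2) _ hx'
    calc x * (g * v * g⁻¹) = g * ((g⁻¹ * x * g) * v) * g⁻¹ := by group
      _ = g * (v * (g⁻¹ * x * g)) * g⁻¹ := by rw [h2]
      _ = g * v * g⁻¹ * x := by group

theorem main [Finite G] (K : Subgroup G) [K.Normal] (hc : Cam K) :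
    (∀ x ∈ K, x ≠ 1 → Subgroup.centralizer ({x} : Set G) ≤ K) ∨ IsPrimePow (Nat.card K) ∨ IsPrimePow K.index := by
  by_contra hcon
  push Not at hcon
  obtain ⟨⟨n, hnK, hn1, hnc⟩, hK2, hK3⟩ := hcon
  obtain ⟨c, hcc, hcK⟩ := SetLike.not_le_iff_exists.1 hnc
  have hcn : c * n = n * c := by
    have := (Subgroup.mem_centralizer_iff.1 hcc) n (Set.mem_singleton n)
    exact this.symm
  obtain ⟨q, hq, hqK, hqi⟩ := H61CmStart.start K hc n hnK hn1 c hcK hcn
  have : Fact q.Prime := ⟨hq⟩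
  obtain ⟨r, hr, hrq, hri⟩ := exists_other_prime K.index q hq hqi (Subgroup.index_ne_zero_of_finite) hK3
  obtain ⟨p, hp, hpq, hpK⟩ := exists_other_prime (Nat.card K) q hq hqK (Nat.card_pos.ne') hK2
  have : Fact p.Prime := ⟨hp⟩
  obtain ⟨P0⟩ : Nonempty (Sylow p K) := inferInstance
  have hfr := Sylow.normalizer_sup_eq_top P0
  set P : Subgroup G := (P0 : Subgroup K).map K.subtype with hPdef
  obtain ⟨H, hHN, hHK, hLnil⟩ := H61CmSupp.supp K (Subgroup.normalizer (P : Set G)) hfr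
  have hPp : IsPGroup p P := P0.2.map K.subtype
  have hPK : P ≤ K := Subgroup.map_subtype_le _
  have hP1 : P ≠ ⊥ := by
    intro hbot
    have h1 : (P0 : Subgroup K) = ⊥ := by
      rw [hPdef] at hbot
      exact (Subgroup.map_eq_bot_iff_of_injective _ K.subtype_injective).1 hbot
    have h2 : p ∣ Nat.card (P0 : Subgroup K) := P0.dvd_card_of_dvd_card hpK
    rw [h1, Subgroup.card_bot] at h2
    exact hp.one_lt.ne' (Nat.dvd_one.1 h2)
  obtain ⟨V, hVP, hV1, hVab, hVp, hVn⟩ := zp p P hPp hP1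
  obtain ⟨z, hzL, hz1, b, hb⟩ := H61CmStart.primeL K hc H hHK q hq hqi hqK
  have hqL : q ∣ Nat.card ↥(H ⊓ K) := by
    have hb0 : b ≠ 0 := by
      rintro rfl
      rw [pow_zero] at hb
      exact hz1 (orderOf_eq_one_iff.1 hb)
    exact (hb ▸ dvd_pow_self q hb0 : q ∣ orderOf z).trans (Subgroup.orderOf_dvd_natCard _ hzL)
  obtain ⟨Q, hQH, hQ, hQK, hQ0, hidx⟩ := H61CmSyl.syl K H hHK q hqi hqL
  have hLq := H61CmS8.s8 K hc H hLnil q Q hQH hQ hQK hQ0 hidx
  exact H61CmS8.s9 K hc H hHK q hLq Q hQH hQ hQK hQ0 hidx r hr hrq hri p hp hpq V (hVP.trans hPK) hV1 hVab hVp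
    (fun g hg v hv => hVn g (hHN hg) v hv)

end Cfsg.Agent.Lib.H61CmMain
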