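import Cfsg.Agent.S1140

set_option autoImplicit false

namespace Cfsg.Agent.Lib.H61SaBil

variable {F : Type*} [Field F] [Fintype F] [CharP F 2]

theorem lin1 (U : Finset (F ≃+* F)) (d : (F ≃+* F) → F)
    (h : ∀ x : F, ∑ σ ∈ U, d σ * σ x = 0) : ∀ σ ∈ U, d σ = 0 := by
  have hli := (Cfsg.Agent.S1140.result (F := F)).1
  rw [linearIndependent_iff'] at hli
  refine hli U d ?_
  funext x
  simpa [Finset.sum_apply] using h x

/-- **Bil** (landed row S1140, first clause = Dedekind).  The maps `(x,y) ↦ σ x * ρ y` are linearly independent. -/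
theorem bil (U : Finset (F ≃+* F)) (hU : ∀ σ, σ ∈ U) (c : (F ≃+* F) → (F ≃+* F) → F)
    (h : ∀ x y : F, ∑ σ ∈ U, ∑ ρ ∈ U, c σ ρ * (σ x * ρ y) = 0) : ∀ σ ρ, c σ ρ = 0 := by
  intro σ ρ
  have h1 : ∀ y : F, ∀ σ ∈ U, ∑ ρ ∈ U, c σ ρ * ρ y = 0 := by
    intro y
    apply lin1 U (fun σ => ∑ ρ ∈ U, c σ ρ * ρ y)
    intro x
    rw [← h x y]
    refine Finset.sum_congr rfl fun σ _ => ?_
    rw [Finset.sum_mul]
    refine Finset.sum_congr rfl fun ρ _ => ?_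
    ring
  exact lin1 U (fun ρ => c σ ρ) (fun y => h1 y σ (hU σ)) ρ (hU ρ)

end Cfsg.Agent.Lib.H61SaBil
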