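import Mathlib

set_option autoImplicit false

namespace Cfsg.Agent.Lib.H61SaCardAut

/-- **CardAut** (PURE MATHLIB).  `F/𝔽_p` is Galois of degree `n`. -/
theorem card_aut {F : Type*} [Field F] [Fintype F] {p n : ℕ} (hp : p.Prime) (hF : Fintype.card F = p ^ n) :
    Nat.card (F ≃+* F) = n := by
  classical
  haveI : Fact p.Prime := ⟨hp⟩
  obtain ⟨r, hr⟩ := CharP.exists F
  haveI := hr
  obtain ⟨k, hrp, hk⟩ := FiniteField.card F r
  have hrp' : r = p := by
    have h1 : r ∣ p ^ n := by
      rw [← hF, hk]
      exact dvd_pow_self _ k.ne_zero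
    exact (Nat.prime_dvd_prime_iff_eq hrp hp).1 (hrp.dvd_of_dvd_pow h1)
  subst hrp'
  letI : Algebra (ZMod r) F := ZMod.algebra F r
  have hfr : Module.finrank (ZMod r) F = n := by
    have h := Module.card_eq_pow_finrank (K := ZMod r) (V := F)
    rw [ZMod.card, hF] at h
    exact (Nat.pow_right_injective hp.two_le h).symm
  haveI : IsGalois (ZMod r) F := inferInstance
  let e : (F ≃+* F) ≃ (F ≃ₐ[ZMod r] F) :=
    { toFun := fun f => AlgEquiv.ofRingEquiv (f := f) (fun x => by
        have : (f : F →+* F).comp (algebraMap (ZMod r) F) = algebraMap (ZMod r) F :=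
          Subsingleton.elim _ _
        exact RingHom.congr_fun this x)
      invFun := fun f => f.toRingEquiv
      left_inv := fun f => by ext; rfl
      right_inv := fun f => by ext; rfl }
  rw [Nat.card_congr e, IsGalois.card_aut_eq_finrank, hfr]

end Cfsg.Agent.Lib.H61SaCardAut
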