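import Mathlib

set_option autoImplicit false

namespace Cfsg.Agent.Lib.H61SaCardHom

/-- **CardHom** (PURE MATHLIB).  `F` is a `ZMod p`-vector space of dimension `n`; `(F →+ F) ≃ (F →ₗ[ZMod p] F)`,
`Module.finrank_linearMap`, `Module.card_eq_pow_finrank`: `card = p^(n*n)`. -/
theorem card_hom {F : Type*} [Field F] [Fintype F] {p n : ℕ} (hp : p.Prime) (hF : Fintype.card F = p ^ n) :
    Nat.card (F →+ F) = p ^ (n ^ 2) := by
  classical
  haveI : Fact p.Prime := ⟨hp⟩
  have hn : n ≠ 0 := by
    rintro rfl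
    have := Fintype.one_lt_card (α := F)
    rw [hF] at this
    simp at this
  obtain ⟨r, hr⟩ := CharP.exists F
  haveI := hr
  obtain ⟨k, hrp, hk⟩ := FiniteField.card F r
  have hrp' : r = p := by
    have h1 : r ∣ p ^ n := by
      rw [← hF, hk]
      exact dvd_pow_self _ k.ne_zero
    exact (Nat.prime_dvd_prime_iff_eq hrp hp).1 (hrp.dvd_of_dvd_pow h1)
  subst hrp'
  letI : Algebra (ZMod r) F := ZMod.algebra F r
  have hfr : Module.finrank (ZMod r) F = n := by
    have h := Module.card_eq_pow_finrank (K := ZMod r) (V := F)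
    rw [ZMod.card, hF] at h
    exact (Nat.pow_right_injective hp.two_le h).symm
  let e : (F →+ F) ≃ (F →ₗ[ZMod r] F) :=
    { toFun := fun f => AddMonoidHom.toZModLinearMap r f
      invFun := fun f => f.toAddMonoidHom
      left_inv := fun f => by ext; rfl
      right_inv := fun f => by ext; rfl }
  rw [Nat.card_congr e]
  have h2 := Module.natCard_eq_pow_finrank (K := ZMod r) (V := F →ₗ[ZMod r] F)
  rw [h2, Module.finrank_linearMap, hfr, Nat.card_eq_fintype_card, ZMod.card, sq]

end Cfsg.Agent.Lib.H61SaCardHom
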