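import Cfsg.Agent.Lib.H61SaDefs

set_option autoImplicit false

namespace Cfsg.Agent.Lib.H61SaExist

open Cfsg.Agent.Lib.H61SaDefs

variable {F : Type*} [Field F] {S : Type*} [Group S] {t : ℕ}

/-- **Exist** (pure computation with `Coord`).  `g (a,b) := (l σ a, l^(t+1) σ b + γ a)` is a bijection of `F × F`,
and `f := C.e.symm.trans (g.trans C.e)` is multiplicative. -/
theorem exist (C : Coord F S t) (l : F) (hl : l ≠ 0) (σ : F ≃+* F) (γ : F →+ F) :
    ∃ f : MulAut S, Shape C f l σ γ := by
  have hl' : l ^ (t + 1) ≠ 0 := pow_ne_zero _ hl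
  let g : F × F ≃ F × F :=
    { toFun := fun x => (l * σ x.1, l ^ (t + 1) * σ x.2 + γ x.1)
      invFun := fun y => (σ.symm (y.1 / l), σ.symm ((y.2 - γ (σ.symm (y.1 / l))) / l ^ (t + 1)))
      left_inv := by
        rintro ⟨a, b⟩
        have h1 : σ.symm (l * σ a / l) = a := by
          rw [mul_div_cancel_left₀ _ hl, RingEquiv.symm_apply_apply]
        refine Prod.ext h1 ?_
        simp only [h1]
        rw [add_sub_cancel_right, mul_div_cancel_left₀ _ hl', RingEquiv.symm_apply_apply]
      right_inv := by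
        rintro ⟨a, b⟩
        refine Prod.ext ?_ ?_
        · simp only [RingEquiv.apply_symm_apply]
          rw [mul_div_cancel₀ _ hl]
        · simp only [RingEquiv.apply_symm_apply]
          rw [mul_div_cancel₀ _ hl', sub_add_cancel] }
  let f0 : S ≃ S := C.e.symm.trans (g.trans C.e)
  have hf0 : ∀ a b : F, f0 (C.e (a, b)) = C.e (l * σ a, l ^ (t + 1) * σ b + γ a) := by
    intro a b
    change C.e (g (C.e.symm (C.e (a, b)))) = _
    rw [Equiv.symm_apply_apply]
    rfl
  have hmul : ∀ x y : S, f0 (x * y) = f0 x * f0 y := by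
    intro x y
    obtain ⟨⟨a, b⟩, rfl⟩ := C.e.surjective x
    obtain ⟨⟨c, d⟩, rfl⟩ := C.e.surjective y
    rw [C.mul, hf0, hf0, hf0, C.mul]
    congr 1
    refine Prod.ext ?_ ?_
    · simp only [map_add]; ring
    · simp only [map_add, map_mul, map_pow, mul_pow]; ring
  exact ⟨MulEquiv.mk' f0 hmul, fun a b => hf0 a b⟩

end Cfsg.Agent.Lib.H61SaExist
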