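import Cfsg.Agent.Lib.H61SaQuad

set_option autoImplicit false

namespace Cfsg.Agent.Lib.H61SaCoef

variable {F : Type*} [Field F] [Fintype F] [CharP F 2]

/-- **Coef**.  Comparison of coefficients in `β (x^t x) = (α x)^t (α x)`.
Proof.  `(∑ τ, a τ * τ x)^t = θ (∑ τ, a τ * τ x) = ∑ τ, (a τ)^t * (θ * τ) x = ∑ σ, (a (θ⁻¹ * σ))^t * σ x` (`map_sum`, `map_mul`, `hθ`, `RingAut.mul_apply`;
reindex with `Finset.sum_bij'`/`Finset.sum_equiv (Equiv.mulLeft θ)`; all membership goals are `hU _`).  `σ (x^t * x) = (θ * σ) x * σ x` (`map_mul`, `map_pow`, `hθ`).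
So with `c σ ρ := a (θ⁻¹ * σ) ^ t * a ρ + if σ = θ * ρ then b ρ else 0` we get `∑ σ, ∑ ρ, c σ ρ * (σ x * ρ x) = 0` (char 2: `u = v → u + v = 0`;
`Finset.sum_mul_sum`, `Finset.sum_ite_eq`).  Apply `H61SaQuad.quad`.  `σ = θ * σ` is impossible (`hθ1`), which gives the first claim;
the second one is `c σ ρ + c ρ σ = 0` with both `if` false (`CharTwo.add_eq_zero`). -/
theorem coef {t : ℕ} (U : Finset (F ≃+* F)) (hU : ∀ σ, σ ∈ U) (θ : F ≃+* F) (hθ : ∀ x, θ x = x ^ t)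
    (hθ1 : θ ≠ 1) (a b : (F ≃+* F) → F)
    (hQ : ∀ x : F, ∑ σ ∈ U, b σ * σ (x ^ t * x) = (∑ σ ∈ U, a σ * σ x) ^ t * (∑ σ ∈ U, a σ * σ x)) :
    (∀ σ, a (θ⁻¹ * σ) ^ t * a σ = 0) ∧
      ∀ σ ρ, σ ≠ θ * ρ → ρ ≠ θ * σ → a (θ⁻¹ * σ) ^ t * a ρ = a (θ⁻¹ * ρ) ^ t * a σ := by
  classical
  have hpow : ∀ x : F, (∑ σ ∈ U, a σ * σ x) ^ t = ∑ σ ∈ U, a (θ⁻¹ * σ) ^ t * σ x := by
    intro x
    rw [← hθ, map_sum]
    refine Finset.sum_equiv (Equiv.mulLeft θ) (fun i => by simp [hU]) ?_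
    intro σ _
    simp only [Equiv.coe_mulLeft, inv_mul_cancel_left, RingAut.mul_apply, hθ, mul_pow]
  have hb : ∀ x : F, ∑ σ ∈ U, b σ * σ (x ^ t * x) =
      ∑ σ ∈ U, ∑ ρ ∈ U, (if σ = θ * ρ then b ρ else 0) * (σ x * ρ x) := by
    intro x
    rw [Finset.sum_comm]
    refine Finset.sum_congr rfl fun ρ _ => ?_
    have : ∀ σ ∈ U, (if σ = θ * ρ then b ρ else 0) * (σ x * ρ x) =
        if σ = θ * ρ then b ρ * ((θ * ρ) x * ρ x) else 0 := by
      intro σ _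
      by_cases e : σ = θ * ρ <;> simp [e]
    rw [Finset.sum_congr rfl this, Finset.sum_ite_eq', if_pos (hU _)]
    simp only [RingAut.mul_apply, map_mul, map_pow, hθ]
  have key := H61SaQuad.quad U hU
    (fun σ ρ => a (θ⁻¹ * σ) ^ t * a ρ + if σ = θ * ρ then b ρ else 0) (by
      intro x
      have e := hQ x
      rw [hpow, hb, Finset.sum_mul_sum] at e
      have e2 : ∑ σ ∈ U, ∑ ρ ∈ U, (a (θ⁻¹ * σ) ^ t * a ρ + if σ = θ * ρ then b ρ else 0) * (σ x * ρ x) =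
          (∑ σ ∈ U, ∑ ρ ∈ U, a (θ⁻¹ * σ) ^ t * σ x * (a ρ * ρ x)) +
          ∑ σ ∈ U, ∑ ρ ∈ U, (if σ = θ * ρ then b ρ else 0) * (σ x * ρ x) := by
        simp only [← Finset.sum_add_distrib]
        refine Finset.sum_congr rfl fun σ _ => Finset.sum_congr rfl fun ρ _ => ?_
        ring
      rw [e2, e, CharTwo.add_self_eq_zero])
  have hne : ∀ σ : F ≃+* F, σ ≠ θ * σ := by
    intro σ e
    apply hθ1
    have : 1 * σ = θ * σ := by rw [one_mul]; exact e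
    exact (mul_right_cancel this).symm
  refine ⟨fun σ => ?_, fun σ ρ h1 h2 => ?_⟩
  · have := key.1 σ
    simp only [if_neg (hne σ), add_zero] at this
    exact this
  · have := key.2 σ ρ
    simp only [if_neg h1, if_neg h2, add_zero] at this
    exact CharTwo.add_eq_zero.1 this

end Cfsg.Agent.Lib.H61SaCoef
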