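import Cfsg.Agent.S1140

set_option autoImplicit false

namespace Cfsg.Agent.Lib.H61SaExpand

variable {F : Type*} [Field F] [Fintype F] [CharP F 2]

/-- **Expand** (landed row S1140, second clause). -/
theorem expand (U : Finset (F ≃+* F)) (hU : ∀ σ, σ ∈ U) (f : F →+ F) :
    ∃ a : (F ≃+* F) → F, ∀ x : F, f x = ∑ σ ∈ U, a σ * σ x := by
  classical
  obtain ⟨s, c, hc⟩ := (Cfsg.Agent.S1140.result (F := F)).2.1 f
  refine ⟨fun σ => if σ ∈ s then c σ else 0, fun x => ?_⟩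
  rw [hc x]
  have : ∑ σ ∈ U, (if σ ∈ s then c σ else 0) * σ x = ∑ σ ∈ U, if σ ∈ s then c σ * σ x else 0 := by
    refine Finset.sum_congr rfl fun σ _ => ?_
    split_ifs <;> simp
  rw [this, ← Finset.sum_filter]
  refine Finset.sum_congr ?_ fun _ _ => rfl
  ext σ
  simp [hU σ]

end Cfsg.Agent.Lib.H61SaExpand
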