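import Mathlib

set_option autoImplicit false

namespace Cfsg.Agent.Lib.H61SaSupp

/-- **Supp** (PURE MATHLIB). -/
theorem supp {Γ K : Type*} [Group Γ] [Field K] (θ : Γ) (hθ : θ ^ 4 ≠ 1) (t : ℕ) (a : Γ → K)
    (h1 : ∀ σ, a (θ⁻¹ * σ) ^ t * a σ = 0)
    (h2 : ∀ σ ρ, σ ≠ θ * ρ → ρ ≠ θ * σ → a (θ⁻¹ * σ) ^ t * a ρ = a (θ⁻¹ * ρ) ^ t * a σ) :
    ∀ i j, a i ≠ 0 → a j ≠ 0 → i = j := by
  have key : ∀ i j, a i ≠ 0 → a j ≠ 0 → i ≠ j → i = θ * (θ * j) := by
    intro i j hi hj hij
    by_contra hne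
    have h3 := h2 (θ * j) i (fun h => hij (mul_left_cancel h).symm) hne
    rw [inv_mul_cancel_left] at h3
    have h4 := h1 (θ * j)
    rw [inv_mul_cancel_left] at h4
    have h5 : a (θ * j) = 0 := by
      rcases mul_eq_zero.mp h4 with h | h
      · have ht : t ≠ 0 := by
          rintro rfl
          simp at h
        exact absurd ((pow_eq_zero_iff ht).mp h) hj
      · exact h
    rw [h5, mul_zero] at h3
    rcases mul_eq_zero.mp h3 with h | h
    · have ht : t ≠ 0 := by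
        rintro rfl
        simp at h
      exact hj ((pow_eq_zero_iff ht).mp h)
    · exact hi h
  intro i j hi hj
  by_contra hij
  have e1 := key i j hi hj hij
  have e2 := key j i hj hi (fun h => hij h.symm)
  apply hθ
  have : i = θ ^ 4 * i := by
    conv_lhs => rw [e1, e2]
    simp only [pow_succ, pow_zero, one_mul, mul_assoc]
  exact (mul_eq_right.mp this.symm)

end Cfsg.Agent.Lib.H61SaSupp
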