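import Cfsg.Agent.Lib.H61SaDefs

set_option autoImplicit false

namespace Cfsg.Agent.Lib.H61SaTheta

open Cfsg.Agent.Lib.H61SaDefs

variable {F : Type*} [Field F] [Fintype F] [CharP F 2]

/-- **Theta** (PURE MATHLIB).  `θ := (frobeniusEquiv F 2) ^ (m+1)`. -/
theorem theta {m t : ℕ} (h : FH F m t) : ∃ θ : F ≃+* F, (∀ x, θ x = x ^ t) ∧ θ ^ 4 ≠ 1 := by
  classical
  haveI : Fact (Nat.Prime 2) := ⟨Nat.prime_two⟩
  have hpow : ∀ (k : ℕ) (x : F), ((frobeniusEquiv F 2) ^ k) x = x ^ 2 ^ k := by
    intro k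
    induction k with
    | zero => intro x; simp
    | succ k ih =>
      intro x
      rw [pow_succ, RingAut.mul_apply, frobeniusEquiv_apply, frobenius_def, ih, ← pow_mul, pow_succ,
        mul_comm]
  refine ⟨(frobeniusEquiv F 2) ^ (m + 1), fun x => by rw [hpow, h.ht], ?_⟩
  intro h4
  rw [← pow_mul] at h4
  have hq : ∀ a : F, a ^ (2 ^ (2 * m + 1)) = a := by
    intro a
    rw [← h.card]
    exact FiniteField.pow_card a
  have hx4 : ∀ x : F, x ^ 4 = x := by
    intro x
    have h5 := hpow ((m + 1) * 4) x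
    rw [h4, RingAut.one_apply] at h5
    have h6 : 2 ^ ((m + 1) * 4) = 2 ^ (2 * m + 1) * (2 ^ (2 * m + 1) * 4) := by
      rw [show (4 : ℕ) = 2 ^ 2 by norm_num, ← pow_add, ← pow_add]
      congr 1
      ring
    rw [h6, pow_mul, hq, pow_mul, hq] at h5
    exact h5.symm
  -- at most four roots
  have hne : (Polynomial.X ^ 4 - Polynomial.X : Polynomial F) ≠ 0 := by
    intro h0
    have := congrArg (fun p => Polynomial.coeff p 4) h0
    simp [Polynomial.coeff_X] at this
  have hdeg : (Polynomial.X ^ 4 - Polynomial.X : Polynomial F).natDegree ≤ 4 := by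
    compute_degree
  have hcard : Fintype.card F ≤ 4 := by
    have h7 : (Finset.univ : Finset F) ⊆ (Polynomial.X ^ 4 - Polynomial.X : Polynomial F).roots.toFinset := by
      intro x _
      rw [Multiset.mem_toFinset, Polynomial.mem_roots hne]
      simp [hx4 x]
    calc Fintype.card F = (Finset.univ : Finset F).card := rfl
      _ ≤ _ := Finset.card_le_card h7
      _ ≤ Multiset.card (Polynomial.X ^ 4 - Polynomial.X : Polynomial F).roots := Multiset.toFinset_card_le _
      _ ≤ _ := Polynomial.card_roots' _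
      _ ≤ 4 := hdeg
  rw [h.card] at hcard
  have hm := h.hm
  have : 2 ^ 3 ≤ 2 ^ (2 * m + 1) := Nat.pow_le_pow_right (by norm_num) (by omega)
  omega

end Cfsg.Agent.Lib.H61SaTheta
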