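import Cfsg.Agent.Lib.H61SaDefs
import Cfsg.Agent.Lib.H61SaExpand
import Cfsg.Agent.Lib.H61SaCoef
import Cfsg.Agent.Lib.H61SaSupp
import Cfsg.Agent.Lib.H61SaTheta

set_option autoImplicit false

namespace Cfsg.Agent.Lib.H61SaLin

open Cfsg.Agent.Lib.H61SaDefs

variable {F : Type*} [Field F] [Fintype F] [CharP F 2]

/-- **Lin** (glue of Expand, Coef, Supp, Theta). -/
theorem lin {m t : ℕ} (h : FH F m t) (α β : F →+ F) (hα : Function.Injective α)
    (hQ : ∀ x : F, β (x ^ t * x) = (α x) ^ t * α x) :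
    ∃ (l : F) (σ : F ≃+* F), l ≠ 0 ∧ ∀ x, α x = l * σ x := by
  classical
  haveI : Finite (F ≃+* F) :=
    Finite.of_injective (fun σ : F ≃+* F => (σ : F → F)) DFunLike.coe_injective
  letI : Fintype (F ≃+* F) := Fintype.ofFinite _
  set U : Finset (F ≃+* F) := Finset.univ with hUdef
  have hU : ∀ σ, σ ∈ U := fun σ => Finset.mem_univ σ
  obtain ⟨θ, hθ, hθ4⟩ := H61SaTheta.theta h
  have hθ1 : θ ≠ 1 := by
    rintro rfl
    exact hθ4 (one_pow 4)
  obtain ⟨a, ha⟩ := H61SaExpand.expand U hU α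
  obtain ⟨b, hb⟩ := H61SaExpand.expand U hU β
  have hQ' : ∀ x : F, ∑ σ ∈ U, b σ * σ (x ^ t * x)
      = (∑ σ ∈ U, a σ * σ x) ^ t * (∑ σ ∈ U, a σ * σ x) := by
    intro x
    rw [← hb, ← ha, hQ]
  obtain ⟨h1, h2⟩ := H61SaCoef.coef U hU θ hθ hθ1 a b hQ'
  have hs := H61SaSupp.supp θ hθ4 t a h1 h2
  have hex : ∃ i, a i ≠ 0 := by
    by_contra hno
    push_neg at hno
    have h0 : α 1 = 0 := by
      rw [ha]
      exact Finset.sum_eq_zero fun σ _ => by rw [hno σ, zero_mul]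
    have : (1 : F) = 0 := hα (by rw [h0, map_zero])
    exact one_ne_zero this
  obtain ⟨i, hi⟩ := hex
  refine ⟨a i, i, hi, fun x => ?_⟩
  rw [ha]
  refine Finset.sum_eq_single i (fun σ _ hσ => ?_) (fun hni => absurd (hU i) hni)
  have : a σ = 0 := by
    by_contra hne
    exact hσ (hs σ i hne hi)
  rw [this, zero_mul]

end Cfsg.Agent.Lib.H61SaLin
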