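import Cfsg.Agent.Lib.H61SaDefs

set_option autoImplicit false

namespace Cfsg.Agent.Lib.H61SaPre

open Cfsg.Agent.Lib.H61SaDefs

variable {F : Type*} [Field F] {S : Type*} [Group S] {t : ℕ}

/-- **Pre** (pure computation with `Coord`).  Every automorphism is `(a,b) ↦ (α a, β b + γ a)`. -/
theorem pre [CharP F 2] (C : Coord F S t) (f : MulAut S) :
    ∃ (α β : F →+ F) (γ : F → F), Function.Injective α ∧
      (∀ a b, f (C.e (a, b)) = C.e (α a, β b + γ a)) ∧
      (∀ a c, γ (a + c) + β (a ^ t * c) = γ a + γ c + (α a) ^ t * α c) := by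
  -- raw coordinates
  let A : F → F := fun a => (C.e.symm (f (C.e (a, 0)))).1
  let G : F → F := fun a => (C.e.symm (f (C.e (a, 0)))).2
  let B : F → F := fun b => (C.e.symm (f (C.e (0, b)))).2
  have hAG : ∀ a, f (C.e (a, 0)) = C.e (A a, G a) := by
    intro a
    change _ = C.e (C.e.symm (f (C.e (a, 0))))
    rw [Equiv.apply_symm_apply]
  have hB : ∀ b, f (C.e (0, b)) = C.e (0, B b) := by
    intro b
    have h1 : f (C.e (0, b)) = C.e ((C.e.symm (f (C.e (0, b)))).1, B b) := by
      change _ = C.e (C.e.symm (f (C.e (0, b))))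
      rw [Equiv.apply_symm_apply]
    have h2 : (f (C.e (0, b))) ^ 2 = 1 := by
      rw [← map_pow, (e_sq_eq_one_iff C 0 b).2 rfl, map_one]
    rw [h1] at h2
    have h3 := (e_sq_eq_one_iff C _ _).1 h2
    rw [h1, h3]
  have hBadd : ∀ b d, B (b + d) = B b + B d := by
    intro b d
    have h1 : C.e (0, b) * C.e (0, d) = C.e (0, b + d) := by
      rw [C.mul]; simp
    have h2 := congrArg f h1
    rw [map_mul, hB, hB, hB, C.mul] at h2
    have h3 := C.e.injective h2
    have h4 := congrArg Prod.snd h3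
    simp only [mul_zero, add_zero] at h4
    exact h4.symm
  have hform : ∀ a b, f (C.e (a, b)) = C.e (A a, B b + G a) := by
    intro a b
    rw [e_split, map_mul, hAG, hB, C.mul]
    congr 1
    refine Prod.ext ?_ ?_
    · simp
    · simp [add_comm]
  have hkey : ∀ a c, A (a + c) = A a + A c ∧
      G (a + c) + B (a ^ t * c) = G a + G c + (A a) ^ t * A c := by
    intro a c
    have h1 : C.e (a, 0) * C.e (c, 0) = C.e (a + c, a ^ t * c) := by
      rw [C.mul]; simp
    have h2 := congrArg f h1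
    rw [map_mul, hAG, hAG, hform, C.mul] at h2
    have h3 := C.e.injective h2
    refine ⟨(congrArg Prod.fst h3).symm, ?_⟩
    have h4 := congrArg Prod.snd h3
    simp only at h4
    rw [add_comm (G (a + c)), ← h4]
  have hB0 : B 0 = 0 := by
    have := hBadd 0 0
    rw [add_zero] at this
    exact left_eq_add.mp this
  have hA0 : A 0 = 0 := by
    have := (hkey 0 0).1
    rw [add_zero] at this
    exact left_eq_add.mp this
  let α : F →+ F := ⟨⟨A, hA0⟩, fun a c => (hkey a c).1⟩
  let β : F →+ F := ⟨⟨B, hB0⟩, hBadd⟩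
  refine ⟨α, β, G, ?_, hform, fun a c => (hkey a c).2⟩
  rw [injective_iff_map_eq_zero]
  intro a ha
  have ha' : A a = 0 := ha
  have h1 : (f (C.e (a, 0))) ^ 2 = 1 := by
    rw [hAG, ha']
    exact (e_sq_eq_one_iff C 0 _).2 rfl
  rw [← map_pow] at h1
  have h2 : C.e (a, 0) ^ 2 = 1 := by
    apply f.injective
    rw [h1, map_one]
  exact (e_sq_eq_one_iff C _ _).1 h2

end Cfsg.Agent.Lib.H61SaPre
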