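import Cfsg.Agent.Lib.H61SaDefs

set_option autoImplicit false

namespace Cfsg.Agent.Lib.H61SaSurj

open Cfsg.Agent.Lib.H61SaDefs

variable {F : Type*} [Field F] [Fintype F]

/-- **Surj** (PURE MATHLIB).  `a ↦ a^t * a = a^(t+1)` is injective, hence surjective. -/
theorem surj {m t : ℕ} (h : FH F m t) : ∀ y : F, ∃ a : F, a ^ t * a = y := by
  have hq : ∀ a : F, a ^ (2 ^ (2 * m + 1)) = a := by
    intro a
    rw [← h.card]
    exact FiniteField.pow_card a
  have ht1 : 1 ≤ t := by
    rw [h.ht]; exact Nat.one_le_two_pow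
  have htt : (t + 1) * (t - 1) + 1 = 2 ^ (2 * m + 1) * 2 := by
    obtain ⟨s, rfl⟩ : ∃ s, t = s + 1 := ⟨t - 1, by omega⟩
    have h2 : (s + 1) * (s + 1) = 2 ^ (2 * m + 1) * 2 := by
      rw [h.ht, ← pow_add, ← pow_succ]
      congr 1
      omega
    simp only [Nat.add_sub_cancel]
    nlinarith
  have key : ∀ a : F, a ≠ 0 → (a ^ t * a) ^ (t - 1) = a := by
    intro a ha
    have h1 : (a ^ t * a) ^ (t - 1) * a = a * a := by
      rw [← pow_succ, ← pow_mul, ← pow_succ, htt, pow_mul, hq, sq]
    exact mul_right_cancel₀ ha h1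
  have hinj : Function.Injective (fun a : F => a ^ t * a) := by
    intro a b hab
    simp only at hab
    by_cases ha : a = 0
    · subst ha
      rw [mul_zero] at hab
      rcases mul_eq_zero.mp hab.symm with h0 | h0
      · exact (pow_eq_zero_iff (by omega)).mp h0 |>.symm
      · exact h0.symm
    · by_cases hb : b = 0
      · subst hb
        rw [mul_zero] at hab
        rcases mul_eq_zero.mp hab with h0 | h0
        · exact (pow_eq_zero_iff (by omega)).mp h0
        · exact h0
      · rw [← key a ha, ← key b hb, hab]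
  exact Finite.injective_iff_surjective.mp hinj

end Cfsg.Agent.Lib.H61SaSurj
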