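import Cfsg.Agent.Lib.H61SaDefs
import Cfsg.Agent.Lib.H61SaPre
import Cfsg.Agent.Lib.H61SaLin
import Cfsg.Agent.Lib.H61SaSurj

set_option autoImplicit false

namespace Cfsg.Agent.Lib.H61SaShape

open Cfsg.Agent.Lib.H61SaDefs

variable {F : Type*} [Field F] [Fintype F] [CharP F 2] {S : Type*} [Group S]

/-- **Shape** (glue of Pre, Lin, Surj). -/
theorem shape {m t : ℕ} (h : FH F m t) (C : Coord F S t) (f : MulAut S) :
    ∃ (l : F) (σ : F ≃+* F) (γ : F →+ F), l ≠ 0 ∧ Shape C f l σ γ := by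
  obtain ⟨α, β, γ, hα, hform, hco⟩ := H61SaPre.pre C f
  have hγ0 : γ 0 = 0 := by
    have h0 := hco 0 0
    simp only [add_zero, mul_zero, map_zero] at h0
    -- γ 0 = γ 0 + γ 0
    exact left_eq_add.mp h0
  have hQ : ∀ x : F, β (x ^ t * x) = (α x) ^ t * α x := by
    intro x
    have h0 := hco x x
    rw [CharTwo.add_self_eq_zero, CharTwo.add_self_eq_zero, hγ0, zero_add, zero_add] at h0
    exact h0
  obtain ⟨l, σ, hl, hlin⟩ := H61SaLin.lin h α β hα hQ
  have hβ : ∀ y : F, β y = l ^ (t + 1) * σ y := by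
    intro y
    obtain ⟨a, rfl⟩ := H61SaSurj.surj h y
    rw [hQ, hlin, map_mul, map_pow]
    ring
  have hadd : ∀ a c, γ (a + c) = γ a + γ c := by
    intro a c
    have h0 := hco a c
    rw [hβ, hlin, hlin, map_mul, map_pow] at h0
    have h1 : (l * σ a) ^ t * (l * σ c) = l ^ (t + 1) * (σ a ^ t * σ c) := by ring
    rw [h1] at h0
    exact add_right_cancel h0
  refine ⟨l, σ, AddMonoidHom.mk' γ hadd, hl, ?_⟩
  intro a b
  rw [hform, hlin, hβ]
  rfl

end Cfsg.Agent.Lib.H61SaShape
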