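import Cfsg.Agent.Lib.H61SaDefs

set_option autoImplicit false

namespace Cfsg.Agent.Lib.H61SaUniq

open Cfsg.Agent.Lib.H61SaDefs

variable {F : Type*} [Field F] {S : Type*} [Group S] {t : ℕ}

/-- **Uniq** part 1. -/
theorem uniq (C : Coord F S t) {f : MulAut S} {l l' : F} {σ σ' : F ≃+* F} {γ γ' : F →+ F} (hl : l ≠ 0)
    (h : Shape C f l σ γ) (h' : Shape C f l' σ' γ') : l = l' ∧ σ = σ' ∧ γ = γ' := by
  have key : ∀ a b : F, l * σ a = l' * σ' a ∧
      l ^ (t + 1) * σ b + γ a = l' ^ (t + 1) * σ' b + γ' a := by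
    intro a b
    have h1 := (h a b).symm.trans (h' a b)
    have h2 := C.e.injective h1
    exact ⟨congrArg Prod.fst h2, congrArg Prod.snd h2⟩
  have hll : l = l' := by
    have := (key 1 0).1
    simpa using this
  subst hll
  refine ⟨rfl, ?_, ?_⟩
  · ext a
    exact mul_left_cancel₀ hl (key a 0).1
  · ext a
    have := (key a 0).2
    simpa using this

/-- **Uniq** part 2. -/
theorem ext (C : Coord F S t) {f g : MulAut S} {l : F} {σ : F ≃+* F} {γ : F →+ F}
    (h : Shape C f l σ γ) (h' : Shape C g l σ γ) : f = g := by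
  apply MulEquiv.ext
  intro x
  obtain ⟨⟨a, b⟩, rfl⟩ := C.e.surjective x
  rw [h a b, h' a b]

end Cfsg.Agent.Lib.H61SaUniq
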