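import Cfsg.Agent.Lib.H61SaDefs
import Cfsg.Agent.Lib.H61SaShape
import Cfsg.Agent.Lib.H61SaExist
import Cfsg.Agent.Lib.H61SaUniq
import Cfsg.Agent.Lib.H61SaCardAut
import Cfsg.Agent.Lib.H61SaCardHom

set_option autoImplicit false

namespace Cfsg.Agent.Lib.H61SaCard

open Cfsg.Agent.Lib.H61SaDefs

variable {F : Type*} [Field F] [Fintype F] [CharP F 2] {S : Type*} [Group S]

/-- **Card** (glue).  The relation `Shape C f l σ γ` is the graph of a bijection `MulAut S ≃ {l : F // l ≠ 0} × (F ≃+* F) × (F →+ F)`: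
total (`H61SaShape.shape`), single valued (`H61SaUniq.uniq`), injective (`H61SaUniq.ext`), surjective (`H61SaExist.exist`): `Equiv.ofBijective` with `Classical.choose`.
`Nat.card_congr`, `Nat.card_prod`, `card {l // l ≠ 0} = card F - 1` (`Fintype.card_subtype_compl`/`Nat.card_eq_fintype_card`, `Fintype.card_units` via `unitsEquivNeZero`),
`H61SaCardAut.card_aut Nat.prime_two h.card`, `H61SaCardHom.card_hom Nat.prime_two h.card`; `ring`. -/
theorem card {m t : ℕ} (h : FH F m t) (C : Coord F S t) :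
    Nat.card (MulAut S) = 2 ^ ((2 * m + 1) ^ 2) * ((2 * m + 1) * (2 ^ (2 * m + 1) - 1)) := by
  classical
  choose l σ γ hl hs using H61SaShape.shape h C
  let Φ : MulAut S → {l : F // l ≠ 0} × (F ≃+* F) × (F →+ F) := fun f => (⟨l f, hl f⟩, σ f, γ f)
  have hbij : Function.Bijective Φ := by
    constructor
    · intro f g e
      simp only [Φ, Prod.mk.injEq, Subtype.mk.injEq] at e
      obtain ⟨e1, e2, e3⟩ := e
      have := hs g
      rw [← e1, ← e2, ← e3] at this
      exact H61SaUniq.ext C (hs f) this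
    · rintro ⟨⟨l0, hl0⟩, σ0, γ0⟩
      obtain ⟨f, hf⟩ := H61SaExist.exist C l0 hl0 σ0 γ0
      refine ⟨f, ?_⟩
      obtain ⟨e1, e2, e3⟩ := H61SaUniq.uniq C (hl f) (hs f) hf
      simp only [Φ, e1, e2, e3]
  rw [Nat.card_congr (Equiv.ofBijective Φ hbij), Nat.card_prod, Nat.card_prod,
    H61SaCardAut.card_aut Nat.prime_two h.card, H61SaCardHom.card_hom Nat.prime_two h.card]
  have : Nat.card {l : F // l ≠ 0} = 2 ^ (2 * m + 1) - 1 := by
    rw [Nat.card_eq_fintype_card, Fintype.card_subtype_compl, Fintype.card_subtype_eq, h.card]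
  rw [this]
  ring

end Cfsg.Agent.Lib.H61SaCard
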