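import Mathlib

set_option autoImplicit false

/-! Vocabulary for project 2556 (automorphism group of the Sylow 2-subgroup of `Sz(q)`).
`S` is the group `A(F, t)` : pairs `(a, b)`, `(a,b)(c,d) = (a + c, b + d + a^t c)`, `t = 2^(m+1)`,
`|F| = 2^(2m+1)`. -/

namespace Cfsg.Agent.Lib.H61SaDefs

/-- coordinates on `S`. -/
structure Coord (F : Type*) [Field F] (S : Type*) [Group S] (t : ℕ) where
  e : F × F ≃ S
  mul : ∀ a b c d : F, e (a, b) * e (c, d) = e (a + c, b + d + a ^ t * c)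

/-- the automorphism `f` is `(a, b) ↦ (l σ(a), l^(t+1) σ(b) + γ(a))`. -/
def Shape {F : Type*} [Field F] {S : Type*} [Group S] {t : ℕ} (C : Coord F S t) (f : MulAut S)
    (l : F) (σ : F ≃+* F) (γ : F →+ F) : Prop :=
  ∀ a b : F, f (C.e (a, b)) = C.e (l * σ a, l ^ (t + 1) * σ b + γ a)

/-- the hypotheses on the field. -/
structure FH (F : Type*) [Field F] [Fintype F] (m t : ℕ) : Prop where
  hm : 1 ≤ m
  card : Fintype.card F = 2 ^ (2 * m + 1)
  ht : t = 2 ^ (m + 1)

variable {F : Type*} [Field F] {S : Type*} [Group S] {t : ℕ}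

theorem e_zero (C : Coord F S t) : C.e (0, 0) = 1 := by
  have h := C.mul 0 0 0 0
  simp only [add_zero, mul_zero] at h
  exact mul_eq_left.mp h

theorem e_sq [CharP F 2] (C : Coord F S t) (a b : F) : C.e (a, b) ^ 2 = C.e (0, a ^ t * a) := by
  rw [pow_two, C.mul, CharTwo.add_self_eq_zero, CharTwo.add_self_eq_zero, zero_add]

theorem e_sq_eq_one_iff [CharP F 2] (C : Coord F S t) (a b : F) : C.e (a, b) ^ 2 = 1 ↔ a = 0 := by
  rw [e_sq, ← e_zero C, C.e.apply_eq_iff_eq, Prod.mk.injEq]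
  constructor
  · rintro ⟨-, h⟩
    rcases mul_eq_zero.mp h with h | h
    · exact (pow_eq_zero_iff (fun h0 : t = 0 => by subst h0; simp at h)).mp h
    · exact h
  · rintro rfl
    exact ⟨rfl, mul_zero _⟩

theorem e_split (C : Coord F S t) (a b : F) : C.e (a, b) = C.e (a, 0) * C.e (0, b) := by
  rw [C.mul]; simp

end Cfsg.Agent.Lib.H61SaDefs
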