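import Cfsg.Agent.Lib.H61SaDefs
import Cfsg.Agent.Lib.Helper8SzIso
import Cfsg.Agent.Lib.Helper8Sz5
import Cfsg.Prelude.Def_Sz

set_option autoImplicit false

namespace Cfsg.Agent.Lib.H61SaInst

open Cfsg.Agent.Lib.H61SaDefs

/-- **Inst** (helper8's Suzuki library).  A Sylow 2-subgroup of `Lie.Sz F (2^(m+1))` has coordinates.
Proof.  `Helper8SzIso.szIso hF hm : Sz F m ≃* Lie.Sz F (2^(m+1))`; the image of the translation subgroup `Q` is a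
Sylow 2-subgroup, all Sylow 2-subgroups are isomorphic, and `Q` has the coordinates `q a b`. -/
theorem inst {S : Type*} [Group S] (m : ℕ) (hm : 1 ≤ m) {F : Type*} [Field F] [Fintype F]
    (hF : Fintype.card F = 2 ^ (2 * m + 1))
    (P : Sylow 2 ↥(Cfsg.Lie.Sz F (2 ^ (m + 1))))
    (hS : Nonempty (S ≃* ↥(P : Subgroup ↥(Cfsg.Lie.Sz F (2 ^ (m + 1)))))) :
    Nonempty (Coord F S (2 ^ (m + 1))) := by
  classical
  obtain ⟨hS⟩ := hS
  have : Fact (Nat.Prime 2) := ⟨Nat.prime_two⟩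
  let e := Cfsg.Agent.Lib.Helper8SzIso.szIso hF hm
  have : Finite (Cfsg.Sz F m) := inferInstance
  have : Finite ↥(Cfsg.Lie.Sz F (2 ^ (m + 1))) := Finite.of_equiv _ e.toEquiv
  let Q' : Sylow 2 (Cfsg.Sz F m) :=
    (Cfsg.Agent.Lib.Helper8Sz4.isPGroup_Q hF hm).toSylow (Cfsg.Agent.Lib.Helper8Sz4.index_Q hF hm)
  let Q'' : Sylow 2 ↥(Cfsg.Lie.Sz F (2 ^ (m + 1))) :=
    Q'.mapSurjective (f := e.toMonoidHom) e.surjective
  have e1 : P ≃* Q'' := Sylow.equiv P Q''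
  have e2 : Cfsg.Agent.Lib.Helper8Sz4.Q hF hm ≃* Q'' :=
    Subgroup.equivMapOfInjective (Cfsg.Agent.Lib.Helper8Sz4.Q hF hm) e.toMonoidHom e.injective
  let E : Cfsg.Agent.Lib.Helper8Sz4.Q hF hm ≃* S := e2.trans (e1.symm.trans hS.symm)
  let e0 : F × F ≃ Cfsg.Agent.Lib.Helper8Sz4.Q hF hm :=
    Equiv.ofBijective (fun x => Cfsg.Agent.Lib.Helper8Sz4.q hF hm x.1 x.2) (by
      constructor
      · rintro ⟨a, b⟩ ⟨a', b'⟩ h
        obtain ⟨h1, h2⟩ := Cfsg.Agent.Lib.Helper8Sz4.q_inj hF hm h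
        exact Prod.ext h1 h2
      · intro x
        obtain ⟨a, b, h⟩ := Cfsg.Agent.Lib.Helper8Sz4.q_surj hF hm x
        exact ⟨(a, b), h.symm⟩)
  refine ⟨⟨e0.trans E.toEquiv, ?_⟩⟩
  intro a b c d
  change E (Cfsg.Agent.Lib.Helper8Sz4.q hF hm a b) * E (Cfsg.Agent.Lib.Helper8Sz4.q hF hm c d)
    = E (Cfsg.Agent.Lib.Helper8Sz4.q hF hm (a + c) (b + d + a ^ 2 ^ (m + 1) * c))
  rw [← map_mul, Cfsg.Agent.Lib.Helper8Sz4.q_mul]
  rfl

end Cfsg.Agent.Lib.H61SaInst
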