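import Cfsg.Agent.Lib.H61SaDefs
import Cfsg.Agent.Lib.H61SaShape
import Cfsg.Agent.Lib.H61SaUniq

set_option autoImplicit false

namespace Cfsg.Agent.Lib.H61SaK

open Cfsg.Agent.Lib.H61SaDefs

variable {F : Type*} [Field F] [Fintype F] [CharP F 2] {S : Type*} [Group S]

/-- **K**.  `K := {f | ∀ a b, ∃ b', f (e (a,b)) = e (a,b')}` (automorphisms trivial modulo `Z = {e (0,b)}`).
Subgroup: `1`: clear; `f * g`: apply twice; `f⁻¹`: write `f⁻¹ (e (a,b)) = e (a',b')` (`C.e.surjective`), apply `f`: `e (a,b) = e (a', _)` so `a' = a`.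
Normal: `g` arbitrary, `f ∈ K`; `g⁻¹ (e (a,b)) = e (a₁,b₁)`, `f (e (a₁,b₁)) = e (a₁,b₂) = e (a₁,b₁) * e (0, b₁ + b₂)` (`C.mul`, char 2), and
`g (e (0,d)) = e (0,d')` because `x^2 = 1 ↔ x = e (0,_)` (`e_sq_eq_one_iff`, `map_pow`); so `(g f g⁻¹)(e (a,b)) = e (a,b) * e (0,d') = e (a, b + d')`.
Membership: `f ∈ K`, `Shape C f l σ γ` (`H61SaShape.shape`) ⇒ `l * σ a = a` for all `a` ⇒ `l = 1` (`a = 1`), `σ = refl`.  Converse: `Shape C f 1 refl γ` gives `b' = 1^(t+1) * b + γ a`. -/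
theorem exists_K {m t : ℕ} (h : FH F m t) (C : Coord F S t) :
    ∃ K : Subgroup (MulAut S), K.Normal ∧ ∀ f, f ∈ K ↔ ∃ γ : F →+ F, Shape C f 1 (RingEquiv.refl F) γ := by
  classical
  have hinj : ∀ {a b a' b' : F}, C.e (a, b) = C.e (a', b') → a = a' ∧ b = b' := by
    intro a b a' b' e
    simpa using C.e.injective e
  have hZ : ∀ (g : MulAut S) (d : F), ∃ d', g (C.e (0, d)) = C.e (0, d') := by
    intro g d
    obtain ⟨⟨a', d'⟩, e⟩ := C.e.surjective (g (C.e (0, d)))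
    have h1 : C.e (0, d) ^ 2 = 1 := (e_sq_eq_one_iff C 0 d).2 rfl
    have h2 : C.e (a', d') ^ 2 = 1 := by rw [e, ← map_pow, h1, map_one]
    have h3 := (e_sq_eq_one_iff C a' d').1 h2
    exact ⟨d', by rw [← e, h3]⟩
  let K : Subgroup (MulAut S) :=
    { carrier := {f | ∀ a b, ∃ b', f (C.e (a, b)) = C.e (a, b')}
      one_mem' := fun a b => ⟨b, rfl⟩
      mul_mem' := by
        intro f g hf hg a b
        obtain ⟨b1, e1⟩ := hg a b
        obtain ⟨b2, e2⟩ := hf a b1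
        exact ⟨b2, by rw [MulAut.mul_apply, e1, e2]⟩
      inv_mem' := by
        intro f hf a b
        obtain ⟨⟨a', b'⟩, e⟩ := C.e.surjective (f⁻¹ (C.e (a, b)))
        obtain ⟨b2, e2⟩ := hf a' b'
        have h1 : C.e (a, b) = C.e (a', b2) := by rw [← e2, e, MulAut.apply_inv_self]
        have h2 := (hinj h1).1
        exact ⟨b', by rw [← e, h2]⟩ }
  refine ⟨K, ⟨?_⟩, ?_⟩
  · intro f hf g a b
    obtain ⟨⟨a1, b1⟩, e⟩ := C.e.surjective (g⁻¹ (C.e (a, b)))
    obtain ⟨b2, e2⟩ := hf a1 b1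
    obtain ⟨d', e3⟩ := hZ g (b1 + b2)
    have e4 : C.e (a1, b2) = C.e (a1, b1) * C.e (0, b1 + b2) := by
      rw [C.mul]
      have : b1 + (b1 + b2) + a1 ^ t * 0 = b2 := by
        rw [mul_zero, add_zero, ← add_assoc, CharTwo.add_self_eq_zero, zero_add]
      rw [this, add_zero]
    refine ⟨b + d', ?_⟩
    rw [MulAut.mul_apply, MulAut.mul_apply, ← e, e2, e4, map_mul, e, MulAut.apply_inv_self, e3, C.mul]
    simp
  · intro f
    constructor
    · intro hf
      obtain ⟨l, σ, γ, hl, hs⟩ := H61SaShape.shape h C f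
      have h1 : ∀ a, l * σ a = a := by
        intro a
        obtain ⟨b', e⟩ := hf a 0
        rw [hs] at e
        exact (hinj e).1
      have hl1 : l = 1 := by simpa using h1 1
      have hσ : σ = RingEquiv.refl F := by
        ext a
        simpa [hl1] using h1 a
      refine ⟨γ, ?_⟩
      rw [← hl1, ← hσ]
      exact hs
    · rintro ⟨γ, hs⟩ a b
      exact ⟨b + γ a, by rw [hs]; simp⟩

end Cfsg.Agent.Lib.H61SaK
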