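import Cfsg.Agent.Lib.H61SaDefs
import Cfsg.Agent.Lib.H61SaExist
import Cfsg.Agent.Lib.H61SaUniq

set_option autoImplicit false

namespace Cfsg.Agent.Lib.H61SaKCard

open Cfsg.Agent.Lib.H61SaDefs

variable {F : Type*} [Field F] [CharP F 2] {S : Type*} [Group S] {t : ℕ}

/-- **KCard** (pure computation).  `K ≃ (F →+ F)`. -/
theorem kcard (C : Coord F S t) (K : Subgroup (MulAut S))
    (hK : ∀ f, f ∈ K ↔ ∃ γ : F →+ F, Shape C f 1 (RingEquiv.refl F) γ) :
    Nat.card K = Nat.card (F →+ F) ∧ (∀ f ∈ K, ∀ g ∈ K, f * g = g * f) ∧ ∀ f ∈ K, f ^ 2 = 1 := by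
  have hmul : ∀ (f g : MulAut S) (γ γ' : F →+ F), Shape C f 1 (RingEquiv.refl F) γ →
      Shape C g 1 (RingEquiv.refl F) γ' → Shape C (f * g) 1 (RingEquiv.refl F) (γ + γ') := by
    intro f g γ γ' hf hg a b
    rw [MulAut.mul_apply, hg a b, hf]
    congr 1
    refine Prod.ext ?_ ?_
    · simp
    · simp only [one_pow, one_mul, RingEquiv.refl_apply, AddMonoidHom.add_apply]
      ring
  have hone : Shape C (1 : MulAut S) 1 (RingEquiv.refl F) 0 := by
    intro a b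
    simp
  refine ⟨?_, ?_, ?_⟩
  · let φ : K → (F →+ F) := fun f => Classical.choose ((hK f.1).1 f.2)
    have hφ : ∀ f : K, Shape C f.1 1 (RingEquiv.refl F) (φ f) :=
      fun f => Classical.choose_spec ((hK f.1).1 f.2)
    apply Nat.card_congr
    refine Equiv.ofBijective φ ⟨?_, ?_⟩
    · intro f g hfg
      apply Subtype.ext
      have h1 := hφ f
      rw [hfg] at h1
      exact H61SaUniq.ext C h1 (hφ g)
    · intro γ
      obtain ⟨f, hf⟩ := H61SaExist.exist C 1 one_ne_zero (RingEquiv.refl F) γ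
      refine ⟨⟨f, (hK f).2 ⟨γ, hf⟩⟩, ?_⟩
      exact (H61SaUniq.uniq C one_ne_zero (hφ ⟨f, (hK f).2 ⟨γ, hf⟩⟩) hf).2.2
  · intro f hf g hg
    obtain ⟨γ, hγ⟩ := (hK f).1 hf
    obtain ⟨γ', hγ'⟩ := (hK g).1 hg
    have h1 := hmul f g γ γ' hγ hγ'
    have h2 := hmul g f γ' γ hγ' hγ
    rw [add_comm] at h2
    exact H61SaUniq.ext C h1 h2
  · intro f hf
    obtain ⟨γ, hγ⟩ := (hK f).1 hf
    have h1 := hmul f f γ γ hγ hγ
    have h2 : γ + γ = 0 := by
      ext x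
      simp [CharTwo.add_self_eq_zero]
    rw [h2] at h1
    rw [sq]
    exact H61SaUniq.ext C h1 hone

end Cfsg.Agent.Lib.H61SaKCard
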