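import Mathlib
import Cfsg.Prelude.Def_Solvable

set_option autoImplicit false

namespace Cfsg.Agent.Lib.H61SaPCore

/-- **PCore** (Mathlib + the definition `Cfsg.pCore p G = sSup {N | N.Normal ∧ IsPGroup p N}`). -/
theorem pCore_eq {G : Type*} [Group G] [Finite G] {p : ℕ} (hp : p.Prime) (K : Subgroup G) (hK : K.Normal)
    (hKp : IsPGroup p K) (hidx : ¬ p ∣ K.index) : Cfsg.pCore p G = K := by
  haveI : Fact p.Prime := ⟨hp⟩
  apply le_antisymm
  · apply sSup_le
    rintro N ⟨hN, hNp⟩ x hx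
    obtain ⟨k, hk⟩ := hNp ⟨x, hx⟩
    have hk' : x ^ p ^ k = 1 := by
      have := congrArg Subtype.val hk
      simpa using this
    rw [← QuotientGroup.eq_one_iff]
    have h1 : orderOf (x : G ⧸ K) ∣ p ^ k := by
      apply orderOf_dvd_of_pow_eq_one
      rw [← QuotientGroup.mk_pow, hk', QuotientGroup.mk_one]
    have h2 : orderOf (x : G ⧸ K) ∣ K.index := by
      rw [Subgroup.index_eq_card]
      exact orderOf_dvd_natCard _
    have h3 : Nat.Coprime (p ^ k) K.index :=
      Nat.Coprime.pow_left _ ((Nat.Prime.coprime_iff_not_dvd hp).2 hidx)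
    have h4 : orderOf (x : G ⧸ K) = 1 := Nat.eq_one_of_dvd_coprimes h3 h1 h2
    exact orderOf_eq_one_iff.mp h4
  · exact le_sSup ⟨hK, hKp⟩

end Cfsg.Agent.Lib.H61SaPCore
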