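import Cfsg.Agent.Lib.H61SaDefs
import Cfsg.Agent.Lib.H61SaCard
import Cfsg.Agent.Lib.H61SaK
import Cfsg.Agent.Lib.H61SaKCard
import Cfsg.Agent.Lib.H61SaPCore
import Cfsg.Agent.Lib.H61SaCardHom
import Cfsg.Prelude.Def_Transfer

set_option autoImplicit false

namespace Cfsg.Agent.Lib.H61SaMain

open Cfsg.Agent.Lib.H61SaDefs

variable {F : Type*} [Field F] [Fintype F] [CharP F 2] {S : Type*} [Group S] [Finite S]

theorem main {m t : ℕ} (h : FH F m t) (C : Coord F S t) :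
    Cfsg.IsElementaryAbelian 2 (Cfsg.pCore 2 (MulAut S)) ∧
      Nat.card ↥(Cfsg.pCore 2 (MulAut S)) = 2 ^ ((2 * m + 1) ^ 2) ∧
      Nat.card (MulAut S) = 2 ^ ((2 * m + 1) ^ 2) * ((2 * m + 1) * (2 ^ (2 * m + 1) - 1)) := by
  obtain ⟨K, hKn, hK⟩ := H61SaK.exists_K h C
  obtain ⟨hc, hcomm, hsq⟩ := H61SaKCard.kcard C K hK
  have hcard := H61SaCard.card h C
  rw [H61SaCardHom.card_hom Nat.prime_two h.card] at hc
  haveI : Finite (MulAut S) := Finite.of_injective (fun f : MulAut S => (f : S → S)) DFunLike.coe_injective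
  have hKp : IsPGroup 2 K := IsPGroup.of_card hc
  have hidx : ¬ 2 ∣ K.index := by
    have h1 : Nat.card K * K.index = Nat.card (MulAut S) := K.card_mul_index
    rw [hc, hcard] at h1
    have h2 : K.index = (2 * m + 1) * (2 ^ (2 * m + 1) - 1) :=
      Nat.eq_of_mul_eq_mul_left (by positivity) h1
    rw [h2]
    intro h3
    rcases (Nat.Prime.dvd_mul Nat.prime_two).mp h3 with h4 | h4
    · omega
    · have h5 : 2 ∣ 2 ^ (2 * m + 1) := dvd_pow_self 2 (by omega)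
      have h6 : 1 ≤ 2 ^ (2 * m + 1) := Nat.one_le_two_pow
      omega
  have hp : Cfsg.pCore 2 (MulAut S) = K := H61SaPCore.pCore_eq Nat.prime_two K hKn hKp hidx
  rw [hp]
  refine ⟨⟨⟨⟨fun a b => Subtype.ext (hcomm a a.2 b b.2)⟩⟩, hsq⟩, hc, hcard⟩

end Cfsg.Agent.Lib.H61SaMain
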