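import Cfsg.Agent.Lib.H61SaBil

set_option autoImplicit false

namespace Cfsg.Agent.Lib.H61SaQuad

variable {F : Type*} [Field F] [Fintype F] [CharP F 2]

/-- **Quad**.  Uniqueness of the coefficients of a quadratic map `x ↦ ∑ c σ ρ * σ x * ρ x`.
Proof.  (2) Write `q x` for the sum.  `q (x+y) + q x + q y = ∑∑ c σ ρ (σ x ρ y + σ y ρ x) = ∑∑ (c σ ρ + c ρ σ) σ x ρ y` (`Finset.sum_comm` on the
second half), and it is `0`; `H61SaBil.bil` gives `c σ ρ + c ρ σ = 0`.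
(1) Hence `∑ σ, ∑ ρ, if σ = ρ then 0 else c σ ρ σ x ρ x = 0`: swap the two sums (`Finset.sum_comm`) to see that this sum `T` satisfies
`T = ∑∑ (if..) c ρ σ σ x ρ x`, and `c ρ σ = c σ ρ` (char 2: `CharTwo.add_eq_zero`), so no information... use instead
`Finset.sum_involution` on `U ×ˢ U` off the diagonal, or: order-free trick `T + T' = 0`; simplest: `Finset.sum_involution` with `(σ,ρ) ↦ (ρ,σ)`:
the terms of `(σ,ρ)` and `(ρ,σ)` add up to `(c σ ρ + c ρ σ) σ x ρ x = 0`, fixed points are excluded.  So `∑ σ ∈ U, c σ σ * (σ x)^2 = 0` for all `x`.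
`(σ x)^2 = (φ * σ) x` with `φ = frobeniusEquiv F 2`; reindex by `σ ↦ φ * σ` (bijection of `U`, as `U` contains everything) and use
`Cfsg.Agent.S1140.result.1` (`linearIndependent_iff'`). -/
theorem quad (U : Finset (F ≃+* F)) (hU : ∀ σ, σ ∈ U) (c : (F ≃+* F) → (F ≃+* F) → F)
    (h : ∀ x : F, ∑ σ ∈ U, ∑ ρ ∈ U, c σ ρ * (σ x * ρ x) = 0) :
    (∀ σ, c σ σ = 0) ∧ ∀ σ ρ, c σ ρ + c ρ σ = 0 := by
  classical
  have h2 : ∀ σ ρ, c σ ρ + c ρ σ = 0 := by
    apply H61SaBil.bil U hU (fun σ ρ => c σ ρ + c ρ σ)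
    intro x y
    have e1 := h (x + y)
    have e2 := h x
    have e3 := h y
    have e4 : ∑ σ ∈ U, ∑ ρ ∈ U, c σ ρ * (σ (x + y) * ρ (x + y)) =
        (∑ σ ∈ U, ∑ ρ ∈ U, c σ ρ * (σ x * ρ x)) + (∑ σ ∈ U, ∑ ρ ∈ U, c σ ρ * (σ y * ρ y)) +
        (∑ σ ∈ U, ∑ ρ ∈ U, c σ ρ * (σ x * ρ y)) + (∑ σ ∈ U, ∑ ρ ∈ U, c σ ρ * (σ y * ρ x)) := by
      simp only [← Finset.sum_add_distrib, map_add]
      refine Finset.sum_congr rfl fun σ _ => Finset.sum_congr rfl fun ρ _ => ?_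
      ring
    rw [e1, e2, e3, zero_add, zero_add] at e4
    have e5 : ∑ σ ∈ U, ∑ ρ ∈ U, c σ ρ * (σ y * ρ x) = ∑ σ ∈ U, ∑ ρ ∈ U, c ρ σ * (σ x * ρ y) := by
      rw [Finset.sum_comm]
      refine Finset.sum_congr rfl fun σ _ => Finset.sum_congr rfl fun ρ _ => ?_
      ring
    rw [e5] at e4
    rw [e4]
    simp only [← Finset.sum_add_distrib]
    refine Finset.sum_congr rfl fun σ _ => Finset.sum_congr rfl fun ρ _ => ?_
    ring
  refine ⟨?_, h2⟩
  have hoff : ∀ x : F, ∑ p ∈ U ×ˢ U, (if p.1 = p.2 then 0 else c p.1 p.2 * (p.1 x * p.2 x)) = 0 := by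
    intro x
    refine Finset.sum_involution (fun p _ => (p.2, p.1)) ?_ ?_ ?_ ?_
    · rintro ⟨σ, ρ⟩ -
      by_cases e : σ = ρ
      · simp [e]
      · have e' : ρ ≠ σ := fun h => e h.symm
        simp only [if_neg e, if_neg e']
        have : c σ ρ * (σ x * ρ x) + c ρ σ * (ρ x * σ x) = (c σ ρ + c ρ σ) * (σ x * ρ x) := by ring
        rw [this, h2, zero_mul]
    · rintro ⟨σ, ρ⟩ - hne heq
      simp only [Prod.mk.injEq] at heq
      simp [heq.1] at hne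
    · rintro ⟨σ, ρ⟩ -
      simp [hU]
    · rintro ⟨σ, ρ⟩ -
      rfl
  have hdiag : ∀ x : F, ∑ σ ∈ U, c σ σ * (σ x * σ x) = 0 := by
    intro x
    have e1 := h x
    rw [← Finset.sum_product'] at e1
    have e2 : ∑ p ∈ U ×ˢ U, c p.1 p.2 * (p.1 x * p.2 x) =
        ∑ p ∈ U ×ˢ U, (if p.1 = p.2 then 0 else c p.1 p.2 * (p.1 x * p.2 x)) +
        ∑ p ∈ U ×ˢ U, (if p.1 = p.2 then c p.1 p.2 * (p.1 x * p.2 x) else 0) := by
      rw [← Finset.sum_add_distrib]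
      refine Finset.sum_congr rfl fun p _ => ?_
      by_cases e : p.1 = p.2 <;> simp [e]
    rw [e1, hoff, zero_add, Finset.sum_product] at e2
    rw [e2]
    refine Finset.sum_congr rfl fun σ _ => ?_
    rw [Finset.sum_ite_eq]
    simp [hU]
  set φ : F ≃+* F := frobeniusEquiv F 2 with hφ
  have hre : ∀ x : F, ∑ τ ∈ U, c (φ⁻¹ * τ) (φ⁻¹ * τ) * τ x = 0 := by
    intro x
    rw [← hdiag x]
    symm
    refine Finset.sum_equiv (Equiv.mulLeft φ) (fun i => by simp [hU]) ?_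
    intro σ _
    simp only [Equiv.coe_mulLeft, inv_mul_cancel_left, RingAut.mul_apply]
    rw [hφ, frobeniusEquiv_apply, frobenius_def]
    ring
  have hli := linearIndependent_iff'.1 (Cfsg.Agent.S1140.result (F := F)).1 U
    (fun τ => c (φ⁻¹ * τ) (φ⁻¹ * τ)) (by
      funext x
      simpa [Finset.sum_apply, Pi.smul_apply, smul_eq_mul] using hre x)
  intro σ
  have := hli (φ * σ) (hU _)
  simpa using this

end Cfsg.Agent.Lib.H61SaQuad
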