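import Mathlib
import Cfsg.Agent.Lib.Helper5Exc2
import Cfsg.Agent.S0985
set_option autoImplicit false
namespace Cfsg.Agent.Lib.H66SvN1080

open Cfsg.Agent.Lib.Helper21Simple Cfsg.Agent.Lib.Helper5Exc Cfsg.Agent.Lib.Helper5Exc2

theorem n3_aux : ∀ n : ℕ, n ≤ 40 → n % 3 = 1 → 40 % n = 0 → n ≠ 1 → n = 4 ∨ n = 10 ∨ n = 40 := by
  decide

theorem rel_aux : ∀ r : ℕ, r ≤ 3 → ∀ d : ℕ, d ≤ 27 → r * d = 27 → r ≠ 1 → r = 3 ∧ d = 9 := by
  intro r hr d hd h h1
  interval_cases r <;> omega

theorem idx_aux : ∀ i : ℕ, i ≤ 13 → 40 % i = 0 → 9 ≤ i → i = 10 := by decide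

theorem n5_aux : ∀ n : ℕ, n ≤ 216 → n % 5 = 1 → 216 % n = 0 → n ≠ 1 → n = 6 ∨ n = 36 ∨ n = 216 := by
  intro n hn h1 h2 h3
  interval_cases n <;> simp_all

/-- an element of order 15 has its fifth power in every subgroup of order 108 and index 10 -/
theorem pow_five_mem {G : Type*} [Group G] [Finite G] (H : Subgroup G) (hi : H.index = 10)
    (hc : Nat.card H = 108) (x : G) (hx : orderOf x = 15) : x ^ 5 ∈ H := by
  classical
  have : Fintype (G ⧸ H) := Fintype.ofFinite _
  have hcard : Fintype.card (G ⧸ H) = 10 := by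
    rw [← Nat.card_eq_fintype_card]; exact hi
  obtain ⟨i, j, hij, he⟩ := Fintype.exists_ne_map_eq_of_card_lt
    (fun i : Fin 11 => (QuotientGroup.mk (x ^ (i : ℕ)) : G ⧸ H)) (by rw [hcard]; simp)
  -- a positive power `≤ 10` in `H`
  have key : ∃ k : ℕ, 1 ≤ k ∧ k ≤ 10 ∧ x ^ k ∈ H := by
    have h1 : (x ^ (i : ℕ))⁻¹ * x ^ (j : ℕ) ∈ H := QuotientGroup.eq.1 he
    have hi' := i.2
    have hj' := j.2
    have hne : (i : ℕ) ≠ (j : ℕ) := fun h => hij (Fin.ext h)
    rcases Nat.lt_or_gt_of_ne hne with hlt | hlt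
    · refine ⟨(j : ℕ) - i, by omega, by omega, ?_⟩
      have : x ^ ((j : ℕ) - i) = (x ^ (i : ℕ))⁻¹ * x ^ (j : ℕ) := by
        rw [eq_inv_mul_iff_mul_eq, ← pow_add]
        congr 1; omega
      rw [this]; exact h1
    · refine ⟨(i : ℕ) - j, by omega, by omega, ?_⟩
      have : x ^ ((i : ℕ) - j) = ((x ^ (i : ℕ))⁻¹ * x ^ (j : ℕ))⁻¹ := by
        rw [mul_inv_rev, inv_inv, eq_inv_mul_iff_mul_eq, ← pow_add]
        congr 1; omega
      rw [this]; exact H.inv_mem h1
  obtain ⟨k, hk1, hk2, hk⟩ := key
  have h2 : (x ^ k) ^ 108 = 1 := by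
    have := pow_card_eq_one' (x := (⟨x ^ k, hk⟩ : H))
    rw [hc] at this
    exact congrArg Subtype.val this
  rw [← pow_mul] at h2
  have h3 := orderOf_dvd_of_pow_eq_one h2
  rw [hx] at h3
  have h4 : k = 5 ∨ k = 10 := by omega
  rcases h4 with rfl | rfl
  · exact hk
  · have h5 : x ^ 5 = (x ^ 10) ^ 2 := by
      rw [← pow_mul]
      have : x ^ 15 = 1 := by rw [← hx]; exact pow_orderOf_eq_one x
      calc x ^ 5 = x ^ 5 * x ^ 15 := by rw [this, mul_one]
        _ = x ^ (10 * 2) := by rw [← pow_add]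
    rw [h5]; exact H.pow_mem hk 2

theorem not_simple {G : Type*} [Group G] [Finite G] [IsSimpleGroup G] : Nat.card G ≠ 1080 := by
  intro h
  classical
  have : Fact (Nat.Prime 3) := ⟨by norm_num⟩
  have : Fact (Nat.Prime 5) := ⟨by norm_num⟩
  have : Fintype G := Fintype.ofFinite G
  have hnc : ¬ IsMulCommutative G := not_comm_of_not_prime (by rw [h]; norm_num)
  -- every proper subgroup has index at least 9
  have key : ∀ H : Subgroup G, H ≠ ⊤ → 9 ≤ H.index := by
    intro H hH
    have h1 := two_mul_card_dvd_factorial hnc H hH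
    rw [h] at h1
    by_contra hlt
    have h2 : (H.index).factorial ∣ (8 : ℕ).factorial := Nat.factorial_dvd_factorial (by omega)
    have h3 : 2 * 1080 ∣ (8 : ℕ).factorial := h1.trans h2
    revert h3
    decide
  have hnorm : ∀ D : Subgroup G, D ≠ ⊥ → D ≠ ⊤ → Subgroup.normalizer (D : Set G) ≠ ⊤ := by
    intro D h1 h2 h3
    have hn : D.Normal := Subgroup.normalizer_eq_top_iff.mp h3
    rcases hn.eq_bot_or_eq_top with h4 | h4
    · exact h1 h4
    · exact h2 h4
  have hcardP : ∀ P : Sylow 3 G, Nat.card (P : Subgroup G) = 27 := by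
    intro P
    have := (sylow_card_index (p := 3) (a := 3) (m := 40)
      (by rw [h]; norm_num) (by norm_num) P).1
    simpa using this
  have hne_top : ∀ D : Subgroup G, Nat.card D ≤ 27 → D ≠ ⊤ := by
    intro D hD hT
    rw [hT, Subgroup.card_top, h] at hD
    omega
  have hne_bot : ∀ D : Subgroup G, 2 ≤ Nat.card D → D ≠ ⊥ := by
    intro D hD hT
    rw [hT, Subgroup.card_bot] at hD
    omega
  have hcr : ∀ H K : Subgroup G, H ≤ K → Nat.card H * H.relIndex K = Nat.card K := by
    intro H K hHK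
    have := Subgroup.relIndex_mul_relIndex ⊥ H K bot_le hHK
    rwa [Subgroup.relIndex_bot_left, Subgroup.relIndex_bot_left] at this
  -- Step A: a subgroup of index 10
  have stepA : ∃ H : Subgroup G, H.index = 10 := by
    obtain ⟨P0⟩ : Nonempty (Sylow 3 G) := inferInstance
    have h1 : Nat.card (Sylow 3 G) ≡ 1 [MOD 3] := card_sylow_modEq_one 3 G
    have h2 : Nat.card (Sylow 3 G) ∣ (P0 : Subgroup G).index := P0.card_dvd_index
    have h3 : (P0 : Subgroup G).index = 40 :=
      (sylow_card_index (p := 3) (a := 3) (m := 40) (by rw [h]; norm_num) (by norm_num) P0).2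
    rw [h3] at h2
    have h4 : 9 ≤ Nat.card (Sylow 3 G) := by
      rw [P0.card_eq_index_normalizer]
      exact key _ (hnorm _ (hne_bot _ (by rw [hcardP]; norm_num)) (hne_top _ (by rw [hcardP])))
    have h5 : Nat.card (Sylow 3 G) ≤ 40 := Nat.le_of_dvd (by norm_num) h2
    rcases n3_aux _ h5 h1 (Nat.mod_eq_zero_of_dvd h2) (by omega) with h6 | h6 | h6
    · omega
    · exact ⟨_, by rw [← P0.card_eq_index_normalizer]; exact h6⟩
    obtain ⟨P, R, hPR, hidx⟩ := Cfsg.Agent.S0985.result (G := G) 3 2 (by rw [h6]; decide)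
    have hidx' : (R : Subgroup G).relIndex (P : Subgroup G) ≤ 3 := by
      simpa [Subgroup.relIndex] using hidx
    set D : Subgroup G := (R : Subgroup G) ⊓ (P : Subgroup G) with hD
    have hrel : (R : Subgroup G).relIndex (P : Subgroup G) * Nat.card D = 27 := by
      have h1 := hcr D (P : Subgroup G) inf_le_right
      rw [hD, Subgroup.inf_relIndex_right, hcardP, ← hD] at h1
      rw [mul_comm]; exact h1
    have hrel1 : (R : Subgroup G).relIndex (P : Subgroup G) ≠ 1 := by
      intro h1
      have h2 : (P : Subgroup G) ≤ (R : Subgroup G) := Subgroup.relIndex_eq_one.mp h1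
      apply hPR
      apply Sylow.ext
      exact Subgroup.eq_of_le_of_card_ge h2 (by rw [hcardP, hcardP])
    have hrel3 : (R : Subgroup G).relIndex (P : Subgroup G) = 3 ∧ Nat.card D = 9 := by
      refine rel_aux _ hidx' _ ?_ hrel hrel1
      have h1 : Nat.card D ∣ 27 := Dvd.intro_left _ hrel
      exact Nat.le_of_dvd (by norm_num) h1
    have hrel3' : (P : Subgroup G).relIndex (R : Subgroup G) = 3 := by
      have h1 := hcr D (R : Subgroup G) inf_le_left
      rw [hD, Subgroup.inf_relIndex_left, hcardP, ← hD, hrel3.2] at h1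
      omega
    have hmf : (27 : ℕ).minFac = 3 := by norm_num
    have hPN : (P : Subgroup G) ≤ Subgroup.normalizer (D : Set G) := by
      rw [hD, ← Subgroup.normal_subgroupOf_iff_le_normalizer_inf]
      apply Subgroup.normal_of_index_eq_minFac_card
      rw [hcardP, hmf]
      exact hrel3.1
    have hRN : (R : Subgroup G) ≤ Subgroup.normalizer (D : Set G) := by
      rw [hD, inf_comm, ← Subgroup.normal_subgroupOf_iff_le_normalizer_inf]
      apply Subgroup.normal_of_index_eq_minFac_card
      rw [hcardP, hmf]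
      exact hrel3'
    set N := Subgroup.normalizer (D : Set G) with hN
    have hNtop : N ≠ ⊤ :=
      hnorm D (hne_bot _ (by rw [hrel3.2]; norm_num)) (hne_top _ (by rw [hrel3.2]; norm_num))
    have hNidx := key N hNtop
    have h1 : (R : Subgroup G).relIndex (P : Subgroup G) ≤ (R : Subgroup G).relIndex N :=
      Subgroup.relIndex_le_of_le_right hPN (by
        intro h0
        have h5 := hcr (R : Subgroup G) N hRN
        rw [h0, mul_zero] at h5
        exact Nat.card_pos.ne h5)
    have h2 : 27 * (R : Subgroup G).relIndex N = Nat.card N := by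
      have h5 := hcr (R : Subgroup G) N hRN
      rwa [hcardP] at h5
    have h3 := N.card_mul_index
    rw [h, ← h2] at h3
    rw [hrel3.1] at h1
    have h7 : (R : Subgroup G).relIndex N * N.index = 40 := by nlinarith
    have h8 : N.index ∣ 40 := Dvd.intro_left _ h7
    have h9 : N.index ≤ 13 := by nlinarith
    exact ⟨N, idx_aux _ h9 (Nat.mod_eq_zero_of_dvd h8) hNidx⟩
  obtain ⟨H, hHi⟩ := stepA
  have hHc : Nat.card H = 108 := by
    have := H.card_mul_index
    rw [hHi, h] at this
    omega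
  have hHtop : H ≠ ⊤ := by
    intro h0
    rw [h0, Subgroup.index_top] at hHi
    omega
  -- Step B: an element of order 15
  have stepB : ∃ x : G, orderOf x = 15 := by
    obtain ⟨P⟩ : Nonempty (Sylow 5 G) := inferInstance
    obtain ⟨hP, n, m, hn5, hn1, hm1, hm4, hmn, hn, hm⟩ :=
      sylow_setup (p := 5) hnc 216 (by rw [h]) (by norm_num) P
    have hn216 : n ∣ 216 := (Dvd.intro_left _ rfl).trans hmn
    have hnle : n ≤ 216 := Nat.le_of_dvd (by norm_num) hn216
    have hC := card_centralizer_mul P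
    rw [hm, hn, h] at hC
    have hm4' : m ≤ 4 := Nat.le_of_dvd (by norm_num) hm4
    have hC15 : Nat.card (Subgroup.centralizer ((P : Subgroup G) : Set G)) = 15 := by
      rcases n5_aux n hnle hn5 (Nat.mod_eq_zero_of_dvd hn216) hn1 with rfl | rfl | rfl
      · exfalso
        have h4 : 9 ≤ Nat.card (Sylow 5 G) := by
          rw [P.card_eq_index_normalizer]
          exact key _ (hnorm _ (hne_bot _ (by rw [hP]; norm_num)) (hne_top _ (by rw [hP]; norm_num)))
        omega
      · have : m = 2 := by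
          interval_cases m
          · simp at hmn
          · exact absurd rfl hm1
          · rfl
          · revert hm4; decide
          · revert hmn; decide
        subst this
        omega
      · exfalso
        have := Nat.le_of_dvd (by norm_num) hmn
        have hm0 : m ≠ 0 := by rintro rfl; simp at hmn
        have : m = 1 := by nlinarith [Nat.pos_of_ne_zero hm0]
        exact hm1 this
    obtain ⟨c, hc⟩ := exists_prime_orderOf_dvd_card' (G := Subgroup.centralizer ((P : Subgroup G) : Set G)) 3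
      (by rw [hC15]; norm_num)
    obtain ⟨y, hy⟩ := exists_prime_orderOf_dvd_card' (G := (P : Subgroup G)) 5 (by rw [hP])
    have hcomm : Commute (y : G) (c : G) := Subgroup.mem_centralizer_iff.1 c.2 y y.2
    refine ⟨(y : G) * c, ?_⟩
    rw [hcomm.orderOf_mul_eq_mul_orderOf_of_coprime, Subgroup.orderOf_coe, Subgroup.orderOf_coe,
      hy, hc]
    rw [Subgroup.orderOf_coe, Subgroup.orderOf_coe, hy, hc]
    norm_num
  obtain ⟨x, hx⟩ := stepB
  -- Step C
  have hcore : x ^ 5 ∈ H.normalCore := by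
    intro b
    have h1 : b * x ^ 5 * b⁻¹ = (b * x * b⁻¹) ^ 5 := (conj_pow).symm
    rw [h1]
    apply pow_five_mem H hHi hHc
    have : orderOf (MulAut.conj b x) = orderOf x := (MulAut.conj b).orderOf_eq x
    rw [← hx, ← this]
    rfl
  have hcb : H.normalCore = ⊥ := by
    rcases (H.normalCore_normal).eq_bot_or_eq_top with h0 | h0
    · exact h0
    · exfalso
      apply hHtop
      rw [eq_top_iff, ← h0]
      exact H.normalCore_le
  rw [hcb, Subgroup.mem_bot] at hcore
  have := orderOf_dvd_of_pow_eq_one hcore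
  rw [hx] at this
  revert this
  decide

end Cfsg.Agent.Lib.H66SvN1080
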