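import Mathlib
import Cfsg.Agent.Lib.Helper5Exc2

set_option autoImplicit false

/-! Shared set-up for the pieces of project 496 (orders without simple groups). -/

namespace Cfsg.Agent.Lib.Helper21Sv

open Subgroup

/-- Sylow `p`-subgroup of order `p` in a non-abelian simple group: numerical data. -/
theorem setup {G : Type*} [Group G] [Finite G] [IsSimpleGroup G] {p : ℕ} [Fact p.Prime]
    (hG : ¬ IsMulCommutative G) (g' : ℕ) (hcard : Nat.card G = p * g') (hg' : ¬ p ∣ g')
    (P : Sylow p G) :
    Nat.card (P : Subgroup G) = p ∧ ∃ n m c : ℕ, n % p = 1 ∧ n ≠ 1 ∧ m ≠ 1 ∧ m ∣ p - 1 ∧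
      c * m * n = Nat.card G ∧ 2 * Nat.card G ∣ n.factorial ∧ p ∣ c ∧
      Nat.card (Sylow p G) = n ∧
      (centralizer ((P : Subgroup G) : Set G)).relIndex
        (normalizer ((P : Subgroup G) : Set G)) = m ∧
      Nat.card (centralizer ((P : Subgroup G) : Set G)) = c := by
  obtain ⟨hP, n, m, hn1, hn2, hm1, hm2, -, hn, hm⟩ :=
    Cfsg.Agent.Lib.Helper5Exc.sylow_setup hG g' hcard hg' P
  refine ⟨hP, n, m, _, hn1, hn2, hm1, hm2, ?_, ?_, ?_, hn, hm, rfl⟩
  · have := Cfsg.Agent.Lib.Helper5Exc2.card_centralizer_mul P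
    rwa [hm, hn] at this
  · have hidx : (normalizer ((P : Subgroup G) : Set G)).index = n := by
      have h0 := P.card_eq_index_normalizer
      rw [hn] at h0
      exact h0.symm
    have hne : normalizer ((P : Subgroup G) : Set G) ≠ ⊤ := by
      intro h
      rw [h, index_top] at hidx
      exact hn2 hidx.symm
    have := Cfsg.Agent.Lib.Helper21Simple.two_mul_card_dvd_factorial hG _ hne
    rwa [hidx] at this
  · have hcyc : IsCyclic (P : Subgroup G) := isCyclic_of_prime_card hP
    have hc : IsMulCommutative (P : Subgroup G) := hcyc.isMulCommutative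
    have hle : (P : Subgroup G) ≤ centralizer ((P : Subgroup G) : Set G) := (P : Subgroup G).le_centralizer
    have := Subgroup.card_dvd_of_le hle
    rwa [hP] at this

end Cfsg.Agent.Lib.Helper21Sv
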