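import Mathlib
import Cfsg.Agent.Lib.Helper5Exc2
import Cfsg.Agent.Lib.Helper21Sv

set_option autoImplicit false

namespace Cfsg.Agent.Lib.H66SvN120

theorem key : ∀ n ∈ Nat.divisors 120, n % 3 = 1 → n ≠ 1 → n ≠ 4 →
    ∀ m ∈ Nat.divisors 2, m ≠ 1 → ∀ c ∈ Nat.divisors 120, c * m * n = 120 → 2 ∣ c := by
  decide +kernel

theorem not_simple {G : Type*} [Group G] [Finite G] [IsSimpleGroup G] : Nat.card G ≠ 120 := by
  intro h
  classical
  let _ : Fintype G := Fintype.ofFinite G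
  have hG : ¬ IsMulCommutative G :=
    Cfsg.Agent.Lib.Helper21Simple.not_comm_of_not_prime (by rw [h]; norm_num)
  have : Fact (Nat.Prime 3) := ⟨by norm_num⟩
  obtain ⟨P⟩ : Nonempty (Sylow 3 G) := inferInstance
  obtain ⟨hP, n, m, c, hn1, hn2, hm1, hm2, hmul, hfac, hpc, hn, hm, hc⟩ :=
    Cfsg.Agent.Lib.Helper21Sv.setup hG 40 (by rw [h]) (by norm_num) P
  rw [h] at hmul hfac
  have hn4 : n ≠ 4 := by
    rintro rfl
    revert hfac
    decide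
  have h2c : 2 ∣ c := key n (Nat.mem_divisors.mpr ⟨⟨c * m, by rw [← hmul]; ring⟩, by norm_num⟩) hn1 hn2 hn4 m
    (Nat.mem_divisors.mpr ⟨hm2, by norm_num⟩) hm1 c
    (Nat.mem_divisors.mpr ⟨⟨m * n, by rw [← hmul]; ring⟩, by norm_num⟩) hmul
  apply Cfsg.Agent.Lib.Helper5Exc2.no_even_centralizer hG P hP (by norm_num) (hc ▸ h2c)
  intro x hx h3 h6
  rw [h] at hx
  have key2 : ∀ x ∈ Nat.divisors 120, ¬ 3 ∣ x → 2 * 3 ≤ x → x % 2 = 0 := by decide +kernel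
  exact Nat.even_iff.mpr (key2 x (Nat.mem_divisors.mpr ⟨hx, by norm_num⟩) h3 h6)

end Cfsg.Agent.Lib.H66SvN120
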