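import Mathlib
import Cfsg.Agent.Lib.Helper5Exc2
import Cfsg.Agent.Lib.Helper21Sv

set_option autoImplicit false

namespace Cfsg.Agent.Lib.H66SvN180

theorem not_simple {G : Type*} [Group G] [Finite G] [IsSimpleGroup G] : Nat.card G ≠ 180 := by
  intro h
  classical
  let _ : Fintype G := Fintype.ofFinite G
  have hG : ¬ IsMulCommutative G :=
    Cfsg.Agent.Lib.Helper21Simple.not_comm_of_not_prime (by rw [h]; norm_num)
  have : Fact (Nat.Prime 5) := ⟨by norm_num⟩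
  obtain ⟨P⟩ : Nonempty (Sylow 5 G) := inferInstance
  obtain ⟨hP, n, m, c, hn1, hn2, hm1, hm2, hmul, hfac, hpc, hn, hm, hc⟩ :=
    Cfsg.Agent.Lib.Helper21Sv.setup hG 36 (by rw [h]) (by norm_num) P
  rw [h] at hmul hfac
  have key : ∀ n ∈ Nat.divisors 180, n % 5 = 1 → n ≠ 1 →
      ∀ m ∈ Nat.divisors 4, m ≠ 1 → ∀ c ∈ Nat.divisors 180, c * m * n = 180 → n = 6 ∧ ¬ c ∣ 5 := by
    decide +kernel
  obtain ⟨hn6, hc5⟩ := key n (Nat.mem_divisors.mpr ⟨⟨c * m, by rw [← hmul]; ring⟩, by norm_num⟩) hn1 hn2 m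
    (Nat.mem_divisors.mpr ⟨hm2, by norm_num⟩) hm1 c
    (Nat.mem_divisors.mpr ⟨⟨m * n, by rw [← hmul]; ring⟩, by norm_num⟩) hmul
  subst hn6
  apply hc5
  rw [← hc]
  exact Cfsg.Agent.Lib.Helper5Exc2.card_centralizer_dvd P hP 6 hn (by norm_num)
    (fun q _ _ _ f hf1 _ hf3 => by omega)

end Cfsg.Agent.Lib.H66SvN180
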