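import Mathlib
import Cfsg.Agent.Lib.Helper5Exc2
import Cfsg.Agent.Lib.Helper21Sv

set_option autoImplicit false

/-! `n_p = p + 1` with `|P| = p`: an element of `N(P) ∖ C(P)` fixes at most two Sylow `p`-subgroups. -/

namespace Cfsg.Agent.Lib.Helper21Sv2

open Subgroup MulAction

variable {G : Type*} [Group G] [Finite G] {p : ℕ} [Fact p.Prime]

theorem inf_eq_bot (P Q : Sylow p G) (hP : Nat.card (P : Subgroup G) = p) (hne : Q ≠ P) :
    (P : Subgroup G) ⊓ (Q : Subgroup G) = ⊥ := by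
  have hp : p.Prime := Fact.out
  have hd : Nat.card ((P : Subgroup G) ⊓ (Q : Subgroup G) : Subgroup G) ∣ p := by
    have := Subgroup.card_dvd_of_le (inf_le_left : (P : Subgroup G) ⊓ (Q : Subgroup G) ≤ P)
    rwa [hP] at this
  rcases (Nat.dvd_prime hp).mp hd with h | h
  · exact Subgroup.card_eq_one.mp h
  · exfalso
    have h1 : ((P : Subgroup G) ⊓ (Q : Subgroup G) : Subgroup G) = P :=
      Subgroup.eq_of_le_of_card_ge inf_le_left (by rw [h, hP])
    have h2 : (P : Subgroup G) ≤ Q := inf_eq_left.mp h1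
    exact hne (Sylow.ext (P.3 Q.2 h2))

theorem exists_smul (P : Sylow p G) (hP : Nat.card (P : Subgroup G) = p)
    (hn : Nat.card (Sylow p G) = p + 1) (Q Q' : Sylow p G) (hQ : Q ≠ P) (hQ' : Q' ≠ P) :
    ∃ y ∈ (P : Subgroup G), y • Q = Q' := by
  have hp : p.Prime := Fact.out
  have hidx : (stabilizer ↥(P : Subgroup G) Q).index ∣ p := by
    have := Subgroup.index_dvd_card (stabilizer ↥(P : Subgroup G) Q)
    rwa [hP] at this
  have h7 : (orbit ↥(P : Subgroup G) Q).ncard = p := by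
    rw [← MulAction.index_stabilizer]
    rcases (Nat.dvd_prime hp).mp hidx with h | h
    · exfalso
      rw [Subgroup.index_eq_one] at h
      have hfix : Q ∈ fixedPoints ↥(P : Subgroup G) (Sylow p G) := by
        intro y
        have : y ∈ stabilizer ↥(P : Subgroup G) Q := by rw [h]; trivial
        exact this
      rw [P.2.sylow_mem_fixedPoints_iff] at hfix
      exact hQ (Sylow.ext (P.3 Q.2 hfix))
    · exact h
  have hsub : orbit ↥(P : Subgroup G) Q ⊆ ({P}ᶜ : Set (Sylow p G)) := by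
    rintro _ ⟨y, rfl⟩ hy
    apply hQ
    have hy' : (y : G) • Q = P := hy
    have h1 : (y : G) • P = P :=
      Sylow.smul_eq_iff_mem_normalizer.mpr (Subgroup.le_normalizer y.2)
    exact smul_left_cancel (y : G) (hy'.trans h1.symm)
  have hc : ({P}ᶜ : Set (Sylow p G)).ncard = p := by
    rw [Set.ncard_compl, Set.ncard_singleton, hn]; simp
  have heq : orbit ↥(P : Subgroup G) Q = ({P}ᶜ : Set (Sylow p G)) :=
    Set.eq_of_subset_of_ncard_le hsub (by rw [hc, h7]) (Set.toFinite _)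
  have hmem : Q' ∈ orbit ↥(P : Subgroup G) Q := by rw [heq]; exact hQ'
  obtain ⟨y, hy⟩ := hmem
  exact ⟨y, y.2, hy⟩

theorem fixed_unique (P : Sylow p G) (hP : Nat.card (P : Subgroup G) = p)
    (hn : Nat.card (Sylow p G) = p + 1) (t : G) (ht : t ∈ normalizer ((P : Subgroup G) : Set G))
    (htC : t ∉ centralizer ((P : Subgroup G) : Set G)) (Q Q' : Sylow p G) (hQ : Q ≠ P)
    (hQ' : Q' ≠ P) (h1 : t • Q = Q) (h2 : t • Q' = Q') : Q = Q' := by
  obtain ⟨y, hy, hyQ⟩ := exists_smul P hP hn Q Q' hQ hQ'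
  by_cases hy1 : y = 1
  · rw [← hyQ, hy1, one_smul]
  exfalso
  apply htC
  -- `w = y⁻¹ t y t⁻¹` lies in `P ∩ N(Q) = 1`
  have hwP : y⁻¹ * (t * y * t⁻¹) ∈ (P : Subgroup G) :=
    (P : Subgroup G).mul_mem ((P : Subgroup G).inv_mem hy) ((Subgroup.mem_normalizer_iff.mp ht y).mp hy)
  have ht' : t⁻¹ • Q = Q := by
    conv_lhs => rw [← h1]
    rw [inv_smul_smul]
  have hwQ : (y⁻¹ * (t * y * t⁻¹)) • Q = Q := by
    rw [mul_smul, mul_smul, mul_smul, ht', hyQ, h2, ← hyQ, inv_smul_smul]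
  have hwN : y⁻¹ * (t * y * t⁻¹) ∈ normalizer ((Q : Subgroup G) : Set G) :=
    Sylow.smul_eq_iff_mem_normalizer.mp hwQ
  have hw : y⁻¹ * (t * y * t⁻¹) ∈ (P : Subgroup G) ⊓ (Q : Subgroup G) := by
    rw [← P.2.inf_normalizer_sylow Q]
    exact ⟨hwP, hwN⟩
  rw [inf_eq_bot P Q hP hQ, Subgroup.mem_bot] at hw
  have hcomm : t * y = y * t := by
    have h3 : t * y * t⁻¹ = y := by
      have := congrArg (fun z => y * z) hw
      simpa using this
    calc t * y = t * y * t⁻¹ * t := by group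
      _ = y * t := by rw [h3]
  rw [Subgroup.mem_centralizer_iff]
  intro x hx
  have hy1' : (⟨y, hy⟩ : (P : Subgroup G)) ≠ 1 := fun h => hy1 (congrArg Subtype.val h)
  have hz : (⟨x, hx⟩ : (P : Subgroup G)) ∈ Subgroup.zpowers (⟨y, hy⟩ : (P : Subgroup G)) :=
    mem_zpowers_of_prime_card hP hy1'
  obtain ⟨k, hk⟩ := hz
  have hk' : y ^ k = x := congrArg Subtype.val hk
  rw [← hk']
  have hc : Commute t y := hcomm
  exact (hc.zpow_right k).eq.symm

theorem card_fixedBy_le_two (P : Sylow p G) (hP : Nat.card (P : Subgroup G) = p)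
    (hn : Nat.card (Sylow p G) = p + 1) (t : G) (ht : t ∈ normalizer ((P : Subgroup G) : Set G))
    (htC : t ∉ centralizer ((P : Subgroup G) : Set G)) :
    1 ≤ Nat.card (fixedBy (Sylow p G) t) ∧ Nat.card (fixedBy (Sylow p G) t) ≤ 2 := by
  have hPF : P ∈ fixedBy (Sylow p G) t := Sylow.smul_eq_iff_mem_normalizer.mpr ht
  have hsub : (fixedBy (Sylow p G) t \ {P}).Subsingleton := by
    rintro Q ⟨hQ1, hQ2⟩ Q' ⟨hQ1', hQ2'⟩
    exact fixed_unique P hP hn t ht htC Q Q' hQ2 hQ2' hQ1 hQ1'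
  have h1 : (fixedBy (Sylow p G) t \ {P}).ncard ≤ 1 := Set.ncard_le_one_iff_subsingleton.mpr hsub
  have h2 := Set.ncard_sdiff_singleton_add_one hPF (Set.toFinite _)
  rw [Nat.card_coe_set_eq]
  omega

end Cfsg.Agent.Lib.Helper21Sv2
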