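import Mathlib
import Cfsg.Agent.Lib.Helper5Exc2
import Cfsg.Agent.Lib.Helper21Sv
import Cfsg.Agent.Lib.Helper21Sv2

set_option autoImplicit false

namespace Cfsg.Agent.Lib.H66SvN336

open Subgroup

theorem key : ∀ n ∈ Nat.divisors 336, n % 7 = 1 → n ≠ 1 → n = 8 := by
  decide +kernel

theorem not_simple {G : Type*} [Group G] [Finite G] [IsSimpleGroup G] : Nat.card G ≠ 336 := by
  intro h
  classical
  let _ : Fintype G := Fintype.ofFinite G
  have hG : ¬ IsMulCommutative G :=
    Cfsg.Agent.Lib.Helper21Simple.not_comm_of_not_prime (by rw [h]; norm_num)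
  have : Fact (Nat.Prime 7) := ⟨by norm_num⟩
  have : Fact (Nat.Prime 2) := ⟨by norm_num⟩
  obtain ⟨P⟩ : Nonempty (Sylow 7 G) := inferInstance
  obtain ⟨hP, n, m, c, hn1, hn2, hm1, hm2, hmul, hfac, hpc, hn, hm, hc⟩ :=
    Cfsg.Agent.Lib.Helper21Sv.setup hG 48 (by rw [h]) (by norm_num) P
  rw [h] at hmul hfac
  have hn8 : n = 8 :=
    key n (Nat.mem_divisors.mpr ⟨⟨c * m, by rw [← hmul]; ring⟩, by norm_num⟩) hn1 hn2
  subst hn8
  have hc7 : c ∣ 7 := by
    rw [← hc]
    exact Cfsg.Agent.Lib.Helper5Exc2.card_centralizer_dvd P hP 8 hn (by norm_num)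
      (fun q _ _ _ f hf1 _ hf3 => by omega)
  have hN := Cfsg.Agent.Lib.Helper21Simple.card_normalizer_mul_card_sylow P
  rw [hn, h] at hN
  have hN42 : Nat.card (normalizer ((P : Subgroup G) : Set G)) = 42 := by omega
  obtain ⟨t, ht⟩ := exists_prime_orderOf_dvd_card' (G := normalizer ((P : Subgroup G) : Set G)) 2
    (by rw [hN42]; norm_num)
  have hto : orderOf (t : G) = 2 := by rw [Subgroup.orderOf_coe, ht]
  have htC : (t : G) ∉ centralizer ((P : Subgroup G) : Set G) := by
    intro hmem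
    have h1 : orderOf (⟨(t : G), hmem⟩ : centralizer ((P : Subgroup G) : Set G)) ∣ c :=
      hc ▸ orderOf_dvd_natCard _
    rw [Subgroup.orderOf_mk, hto] at h1
    have h2 : 2 ∣ 7 := h1.trans hc7
    omega
  obtain ⟨h1, h2⟩ := Cfsg.Agent.Lib.Helper21Sv2.card_fixedBy_le_two P hP hn (t : G) t.2 htC
  have h3 := Cfsg.Agent.Lib.Helper63SylowNum2.card_modEq_card_fixedBy (α := Sylow 7 G) (t : G) hto
  rw [hn] at h3
  have hF : Nat.card (MulAction.fixedBy (Sylow 7 G) (t : G)) = 2 := by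
    unfold Nat.ModEq at h3
    omega
  let _ : Fintype (Sylow 7 G) := Fintype.ofFinite _
  set σ : Equiv.Perm (Sylow 7 G) := MulAction.toPerm (t : G) with hσ
  have hσ2 : orderOf σ = 2 := by
    apply orderOf_eq_prime
    · have h4 : σ ^ 2 = MulAction.toPermHom G (Sylow 7 G) ((t : G) ^ 2) := by
        rw [map_pow]; rfl
      rw [h4, ← hto, pow_orderOf_eq_one, map_one]
    · intro h5
      have h6 : (t : G) = 1 := by
        apply Cfsg.Agent.Lib.Helper63SylowNum2.faithful (p := 7) (by rw [hn]; norm_num)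
        intro Q
        have := congrArg (fun τ : Equiv.Perm (Sylow 7 G) => τ Q) h5
        simpa [hσ] using this
      rw [h6, orderOf_one] at hto
      omega
  have hs := Cfsg.Agent.Lib.Helper63SylowNum2.sign_involution σ hσ2
  rw [hσ, Cfsg.Agent.Lib.Helper63SylowNum2.sign_eq_one hG] at hs
  have hc8 : Fintype.card (Sylow 7 G) = 8 := by rw [← Nat.card_eq_fintype_card, hn]
  have hc2 : Fintype.card (Function.fixedPoints (MulAction.toPerm (t : G) : Equiv.Perm (Sylow 7 G))) = 2 := by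
    rw [← Nat.card_eq_fintype_card]
    exact hF
  rw [hc8, hc2] at hs
  revert hs
  decide

end Cfsg.Agent.Lib.H66SvN336
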