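import Mathlib
import Cfsg.Agent.Lib.Helper5Exc2

set_option autoImplicit false

namespace Cfsg.Agent.Lib.H66SvN420

theorem sign_invol {α : Type*} [Fintype α] [DecidableEq α] (σ : Equiv.Perm α)
    (h2 : orderOf σ = 2) :
    ∃ k, σ.support.card = 2 * k ∧ Equiv.Perm.sign σ = (-1) ^ k := by
  obtain ⟨n, hn⟩ := Equiv.Perm.cycleType_prime_order (σ := σ) (by rw [h2]; exact Nat.prime_two)
  rw [h2] at hn
  refine ⟨n + 1, ?_, ?_⟩
  · rw [← Equiv.Perm.sum_cycleType, hn, Multiset.sum_replicate, smul_eq_mul, mul_comm]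
  · rw [Equiv.Perm.sign_of_cycleType', hn, Multiset.map_replicate, Multiset.prod_replicate]
    norm_num

/-- an involution acting as an odd permutation -/
theorem odd_invol_false {G : Type*} [Group G] [Finite G] [IsSimpleGroup G]
    (hG : ¬ IsMulCommutative G) {α : Type*} [MulAction G α] [Finite α] (c : G)
    (hc : orderOf c = 2) (k : ℕ) (hk : Odd k)
    (h : Nat.card α = Nat.card (MulAction.fixedBy α c) + 2 * k) : False := by
  classical
  let _ : Fintype α := Fintype.ofFinite α
  set σ : Equiv.Perm α := MulAction.toPermHom G α c with hσ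
  have hsupp : σ.support.card = 2 * k := by
    have h1 : Nat.card (MulAction.fixedBy α c) = (Finset.univ.filter fun x : α => σ x = x).card := by
      rw [Nat.card_eq_fintype_card, Fintype.card_subtype]
      rfl
    have h2 : σ.support = Finset.univ.filter fun x : α => ¬ σ x = x := by
      ext x
      simp
    have h3 := Finset.card_filter_add_card_filter_not (s := (Finset.univ : Finset α))
      (fun x : α => σ x = x)
    rw [h2]
    rw [Nat.card_eq_fintype_card, h1] at h
    rw [Finset.card_univ] at h3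
    omega
  have hk0 : 0 < k := hk.pos
  have hσ1 : σ ≠ 1 := by
    intro e
    rw [e, Equiv.Perm.support_one, Finset.card_empty] at hsupp
    omega
  have hσ2 : orderOf σ = 2 := by
    apply orderOf_eq_prime _ hσ1
    rw [hσ, ← map_pow, ← hc, pow_orderOf_eq_one, map_one]
  obtain ⟨k', hk1, hk2⟩ := sign_invol σ hσ2
  have hkk : k' = k := by omega
  subst hkk
  rw [hk.neg_one_pow] at hk2
  let f : G →* ℤˣ := Equiv.Perm.sign.comp (MulAction.toPermHom G α)
  have hfc : f c = -1 := hk2
  rcases f.normal_ker.eq_bot_or_eq_top with h' | h'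
  · apply hG
    have hinj : Function.Injective f := (MonoidHom.ker_eq_bot_iff _).mp h'
    exact ⟨⟨fun a b => hinj (by rw [map_mul, map_mul, mul_comm])⟩⟩
  · have : c ∈ f.ker := by rw [h']; exact Subgroup.mem_top c
    rw [MonoidHom.mem_ker, hfc] at this
    exact absurd this (by decide)

theorem not_simple {G : Type*} [Group G] [Finite G] [IsSimpleGroup G] : Nat.card G ≠ 420 := by
  intro h
  classical
  let _ : Fintype G := Fintype.ofFinite G
  have hG : ¬ IsMulCommutative G :=
    Cfsg.Agent.Lib.Helper21Simple.not_comm_of_not_prime (by rw [h]; norm_num)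
  have : Fact (Nat.Prime 7) := ⟨by norm_num⟩
  obtain ⟨P⟩ : Nonempty (Sylow 7 G) := inferInstance
  obtain ⟨hP, n, m, hn1, hn2, hm1, hm2, hmn, hn, hm⟩ :=
    Cfsg.Agent.Lib.Helper5Exc.sylow_setup hG 60 (by rw [h]) (by norm_num) P
  have hmul := Cfsg.Agent.Lib.Helper5Exc2.card_centralizer_mul P
  rw [hm, hn, h] at hmul
  have hcases : n = 15 ∧ m = 2 := by
    have key : ∀ k ∈ Nat.divisors 60, ∀ n ∈ Nat.divisors k, n % 7 = 1 → n ≠ 1 →
        ∀ m ∈ Nat.divisors 6, m ≠ 1 → m * n = k → n = 15 ∧ m = 2 := by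
      decide +kernel
    exact key (m * n) (Nat.mem_divisors.mpr ⟨hmn, by norm_num⟩) n
      (Nat.mem_divisors.mpr ⟨dvd_mul_left _ _, fun h0 => by rw [h0] at hmn; omega⟩) hn1 hn2 m
      (Nat.mem_divisors.mpr ⟨hm2, by norm_num⟩) hm1 rfl
  obtain ⟨rfl, rfl⟩ := hcases
  have hc14 : Nat.card (Subgroup.centralizer ((P : Subgroup G) : Set G)) = 14 := by omega
  obtain ⟨c, hc⟩ := exists_prime_orderOf_dvd_card' (G := Subgroup.centralizer ((P : Subgroup G) : Set G))
    2 (by rw [hc14]; norm_num)
  have hc2 : orderOf (c : G) = 2 := by rw [Subgroup.orderOf_coe, hc]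
  have hc1 : (c : G) ≠ 1 := by
    intro e
    rw [e, orderOf_one] at hc2
    omega
  have hfix := Cfsg.Agent.Lib.Helper5Exc2.card_fixedBy_eq_one P hP 15 hn hn2
      (fun q hq hqd hq7 f hf1 hf2 hf3 => by
        rw [hc14] at hqd
        have hq2 : q = 2 := by
          have h14 : (14 : ℕ) = 2 * 7 := by norm_num
          rw [h14] at hqd
          rcases (Nat.Prime.dvd_mul hq).1 hqd with h' | h'
          · exact (Nat.prime_dvd_prime_iff_eq hq Nat.prime_two).1 h'
          · exact absurd ((Nat.prime_dvd_prime_iff_eq hq (by norm_num)).1 h') hq7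
        subst hq2
        omega) (c : G) c.2 hc1
  exact odd_invol_false hG (α := Sylow 7 G) (c : G) hc2 7 (by decide) (by rw [hn, hfix])

end Cfsg.Agent.Lib.H66SvN420
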