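import Mathlib
import Cfsg.Agent.Lib.Helper5Exc2

set_option autoImplicit false

namespace Cfsg.Agent.Lib.H66SvN672

theorem not_simple {G : Type*} [Group G] [Finite G] [IsSimpleGroup G] : Nat.card G ≠ 672 := by
  intro h
  classical
  let _ : Fintype G := Fintype.ofFinite G
  have hG : ¬ IsMulCommutative G :=
    Cfsg.Agent.Lib.Helper21Simple.not_comm_of_not_prime (by rw [h]; norm_num)
  have : Fact (Nat.Prime 7) := ⟨by norm_num⟩
  obtain ⟨P⟩ : Nonempty (Sylow 7 G) := inferInstance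
  obtain ⟨hP, n, m, hn1, hn2, hm1, hm2, hmn, hn, hm⟩ :=
    Cfsg.Agent.Lib.Helper5Exc.sylow_setup hG 96 (by rw [h]) (by norm_num) P
  have hn8 : n = 8 := by
    have key : ∀ n ∈ Nat.divisors 96, n % 7 = 1 → n ≠ 1 → n = 8 := by decide
    exact key n (Nat.mem_divisors.mpr ⟨(dvd_mul_left n m).trans hmn, by norm_num⟩) hn1 hn2
  subst hn8
  have hC := Cfsg.Agent.Lib.Helper5Exc2.card_centralizer_dvd P hP 8 hn hn2
    (fun q _ _ _ f hf1 _ hf3 => by omega)
  have hmul := Cfsg.Agent.Lib.Helper5Exc2.card_centralizer_mul P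
  rw [hm, hn, h] at hmul
  have h1 : Nat.card (Subgroup.centralizer ((P : Subgroup G) : Set G)) ≤ 7 :=
    Nat.le_of_dvd (by norm_num) hC
  have h2 : m ≤ 6 := Nat.le_of_dvd (by norm_num) hm2
  have h3 : Nat.card (Subgroup.centralizer ((P : Subgroup G) : Set G)) * m ≤ 7 * 6 :=
    Nat.mul_le_mul h1 h2
  omega

end Cfsg.Agent.Lib.H66SvN672
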