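import Mathlib
import Cfsg.Agent.Lib.Helper5Exc2
import Cfsg.Agent.Lib.H15N720A1
import Cfsg.Agent.Lib.H15N720A2
import Cfsg.Agent.Lib.H15N720C
import Cfsg.Agent.Lib.H15N720D4

set_option autoImplicit false

/-! No simple group of order 720: the column of an element of order 5 of the character table. -/
namespace Cfsg.Agent.Lib.H66SvN720
open Cfsg Subgroup
open Cfsg.Agent.Lib.Helper81BB Cfsg.Agent.Lib.Helper82Linear Cfsg.Agent.Lib.Helper5Exc
  Cfsg.Agent.Lib.Helper5Exc2
open scoped ComplexConjugate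

/-- a rational algebraic integer of the form `r / 4` is an integer. -/
theorem int_of_integral (α : ℂ) (hα : IsIntegral ℤ α) (r : ℤ) (h : 4 * α = r) :
    ∃ c : ℤ, α = c ∧ 4 * c = r := by
  have h3 : α = (((r : ℚ) / 4 : ℚ) : ℂ) := by
    push_cast
    linear_combination (1 / 4 : ℂ) * h
  rw [h3] at hα
  have h5 : IsIntegral ℤ ((r : ℚ) / 4 : ℚ) :=
    (isIntegral_algebraMap_iff (algebraMap ℚ ℂ).injective).mp hα
  obtain ⟨n, hn⟩ := IsIntegrallyClosed.isIntegral_iff.mp h5
  have h6 : (n : ℚ) = (r : ℚ) / 4 := by simpa using hn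
  refine ⟨n, ?_, ?_⟩
  · rw [h3, ← h6]; simp
  · have h7 : (4 : ℚ) * n = r := by rw [h6]; ring
    exact_mod_cast h7

theorem not_simple {G : Type*} [Group G] [Finite G] [IsSimpleGroup G] : Nat.card G ≠ 720 := by
  intro h
  classical
  let _ : Fintype G := Fintype.ofFinite G
  have hG : ¬ IsMulCommutative G :=
    Cfsg.Agent.Lib.Helper21Simple.not_comm_of_not_prime (by rw [h]; norm_num)
  have : Fact (Nat.Prime 5) := ⟨by norm_num⟩
  obtain ⟨P⟩ : Nonempty (Sylow 5 G) := inferInstance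
  obtain ⟨hP, hC, hr⟩ := H15N720A1.sylow5 h P
  let _ : Fintype ↥(P : Subgroup G) := Fintype.ofFinite _
  have hP1 : 1 < Nat.card ↥(P : Subgroup G) := by rw [hP]; norm_num
  have : Nontrivial ↥(P : Subgroup G) := Finite.one_lt_card_iff_nontrivial.mp hP1
  obtain ⟨y0, hy0⟩ := exists_ne (1 : ↥(P : Subgroup G))
  set y : G := (y0 : G) with hy
  have hyP : y ∈ (P : Subgroup G) := y0.2
  have hy1 : y ≠ 1 := fun h1 => hy0 (Subtype.ext h1)
  obtain ⟨hCy, u, hu, hu4⟩ := H15N720A2.exists_u (P : Subgroup G) hP hC hr y hyP hy1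
  have hy05 : y0 ^ 5 = 1 := by
    have h1 : y0 ^ Nat.card ↥(P : Subgroup G) = 1 := pow_card_eq_one'
    rwa [hP] at h1
  have hy5 : y ^ 5 = 1 := by
    have := congrArg (Subtype.val) hy05
    simpa using this
  -- the powers of `y` are conjugate
  have hcl : ∀ (χ : IrrCharacter G) (g x : G), (χ : G → ℂ) (x * g * x⁻¹) = (χ : G → ℂ) g :=
    fun χ g x => Cfsg.Agent.Lib.Helper83Char.irr_class χ.2 g x
  have hupow : ∀ j : ℕ, u * y ^ j * u⁻¹ = (y ^ 2) ^ j := by
    intro j
    rw [← hu, conj_pow]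
  have hpow : ∀ (χ : IrrCharacter G) (k : ℕ), (k = 1 ∨ k = 2 ∨ k = 3 ∨ k = 4) →
      (χ : G → ℂ) (y ^ k) = (χ : G → ℂ) y := by
    intro χ k hk
    have e2 : (χ : G → ℂ) (y ^ 2) = (χ : G → ℂ) y := by rw [← hu, hcl]
    have e4 : (χ : G → ℂ) (y ^ 4) = (χ : G → ℂ) y := by
      have : y ^ 4 = u * y ^ 2 * u⁻¹ := by rw [hupow, ← pow_mul]
      rw [this, hcl, e2]
    have e3 : (χ : G → ℂ) (y ^ 3) = (χ : G → ℂ) y := by
      have : y ^ 3 = u * y ^ 4 * u⁻¹ := by
        rw [hupow, ← pow_mul]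
        calc y ^ 3 = y ^ 3 * y ^ 5 := by rw [hy5, mul_one]
          _ = y ^ (2 * 4) := by rw [← pow_add]
      rw [this, hcl, e4]
    rcases hk with rfl | rfl | rfl | rfl
    · rw [pow_one]
    · exact e2
    · exact e3
    · exact e4
  have hz : ∀ (χ : IrrCharacter G) (z : ↥(P : Subgroup G)), z ≠ 1 →
      (χ : G → ℂ) (z : G) = (χ : G → ℂ) y := by
    intro χ z hz1
    have hmem : z ∈ zpowers y0 := mem_zpowers_of_prime_card hP hy0
    obtain ⟨k, hk5, hk⟩ : ∃ k < 5, y0 ^ k = z := by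
      have ho : orderOf y0 = 5 := orderOf_eq_prime hy05 hy0
      have := (mem_zpowers_iff_mem_range_orderOf (x := y0) (y := z)).mp hmem
      rw [ho] at this
      simpa using this
    have hzk : (z : G) = y ^ k := by rw [← hk]; simp [hy]
    rw [hzk]
    apply hpow
    have hk0 : k ≠ 0 := by
      rintro rfl
      exact hz1 (by rw [← hk, pow_zero])
    omega
  have hsum : ∀ χ : IrrCharacter G, ∃ k : ℕ,
      (χ : G → ℂ) 1 + 4 * (χ : G → ℂ) y = 5 * k := by
    intro χ
    obtain ⟨k, hk⟩ := sum_res P χ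
    refine ⟨k, ?_⟩
    rw [hP, sum_split_one] at hk
    have h2 : ∑ z : ↥(P : Subgroup G), (if z ≠ 1 then (χ : G → ℂ) (z : G) else 0) =
        ∑ z : ↥(P : Subgroup G), (if z ≠ 1 then (χ : G → ℂ) y else 0) := by
      apply Finset.sum_congr rfl
      intro z _
      split_ifs with hz1
      · exact hz χ z hz1
      · rfl
    rw [h2, ← Finset.sum_filter, Finset.sum_const, Finset.filter_ne', Finset.card_erase_of_mem
      (Finset.mem_univ _), Finset.card_univ, ← Nat.card_eq_fintype_card, hP] at hk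
    simpa using hk
  have hex : ∀ χ : IrrCharacter G, ∃ c : ℤ, (χ : G → ℂ) y = c ∧
      (5 : ℤ) ∣ (charDegree (χ : G → ℂ) : ℤ) - c := by
    intro χ
    obtain ⟨k, hk⟩ := hsum χ
    obtain ⟨c, hc1, hc2⟩ := int_of_integral _ (irr_integral χ y)
      (5 * (k : ℤ) - (charDegree (χ : G → ℂ) : ℤ)) (by
        push_cast
        rw [charDegree_castC]
        linear_combination hk)
    exact ⟨c, hc1, ⟨(k : ℤ) - c, by linarith⟩⟩
  choose c hc hmod using hex
  have hcc : ∑ χ : IrrCharacter G, (c χ) ^ 2 = 5 := by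
    have h1 := irr_orth2 y y
    rw [if_pos (IsConj.refl y), hCy] at h1
    have h2 : ∑ χ : IrrCharacter G, (((c χ) ^ 2 : ℤ) : ℂ) = 5 := by
      rw [← Nat.cast_ofNat (R := ℂ), ← h1]
      apply Finset.sum_congr rfl
      intro χ _
      rw [hc χ, Complex.conj_eq_iff_real.mpr ⟨(c χ : ℝ), by push_cast; rfl⟩]
      push_cast
      ring
    exact_mod_cast h2
  have hcd : ∑ χ : IrrCharacter G, (charDegree (χ : G → ℂ) : ℤ) * c χ = 0 := by
    have h1 := irr_orth2 y 1
    rw [if_neg (fun hc' => hy1 (isConj_one_left.mp hc'))] at h1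
    have h2 : ∑ χ : IrrCharacter G, (((charDegree (χ : G → ℂ) : ℤ) * c χ : ℤ) : ℂ) = 0 := by
      rw [← h1]
      apply Finset.sum_congr rfl
      intro χ _
      rw [hc χ, ← charDegree_castC, Complex.conj_natCast]
      push_cast
      ring
    exact_mod_cast h2
  have hsq : ∑ χ : IrrCharacter G, (charDegree (χ : G → ℂ)) ^ 2 = 720 := by
    have h1 := irr_orth2 (1 : G) 1
    have htop : centralizer ({1} : Set G) = ⊤ := by
      ext g; simp [mem_centralizer_iff]
    rw [if_pos (IsConj.refl 1), htop, Subgroup.card_top, h] at h1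
    have h2 : ∑ χ : IrrCharacter G, (((charDegree (χ : G → ℂ)) ^ 2 : ℕ) : ℂ) = (720 : ℕ) := by
      rw [← h1]
      apply Finset.sum_congr rfl
      intro χ _
      rw [← charDegree_castC, Complex.conj_natCast]
      push_cast
      ring
    exact_mod_cast h2
  have hone : charDegree ((irrOne G : IrrCharacter G) : G → ℂ) = 1 := by
    have h1 := charDegree_castC (irrOne G)
    have h2 : ((irrOne G : IrrCharacter G) : G → ℂ) 1 = 1 := rfl
    rw [h2] at h1
    exact_mod_cast h1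
  have hc0 : c (irrOne G) = 1 := by
    have h1 := hc (irrOne G)
    have h2 : ((irrOne G : IrrCharacter G) : G → ℂ) y = 1 := rfl
    rw [h2] at h1
    exact_mod_cast h1.symm
  obtain ⟨χ, hd4, hcm⟩ := H15N720C.exists_deg_four (fun χ : IrrCharacter G => charDegree (χ : G → ℂ))
    c (irrOne G) (fun χ => by have := charDegree_dvd χ; rwa [h] at this)
    (fun χ => ⟨fun h1 => by
      by_contra hne
      exact charDegree_ne_one hG χ hne h1, fun h1 => by rw [h1]; exact hone⟩)
    hc0 hmod hsq hcc hcd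
  -- the character of degree 4
  obtain ⟨n, ρ, hρ, hχ⟩ := χ.2
  have hdeg : charDegree (χ : G → ℂ) = n := by
    have h1 : ((charDegree (χ : G → ℂ) : ℕ) : ℂ) = (n : ℂ) := by
      rw [charDegree_castC, ← hχ, Representation.char_one, Module.finrank_fin_fun]
    exact_mod_cast h1
  obtain rfl : n = 4 := by rw [← hdeg]; exact hd4
  have htr : ∀ k : ℕ, k = 1 ∨ k = 2 ∨ k = 3 ∨ k = 4 →
      LinearMap.trace ℂ _ (ρ (y ^ k)) = -1 := by
    intro k hk
    have h1 := hpow χ k hk
    rw [hc χ, hcm, ← hχ] at h1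
    have h2 : ρ.character (y ^ k) = LinearMap.trace ℂ _ (ρ (y ^ k)) := rfl
    rw [← h2, h1]
    simp
  have hdet := H15N720D4.det_u ρ y u hy5 hu hu4 htr
  have h1 := hom_trivial hG (Cfsg.Agent.Lib.Helper19Det.detHom ρ) u
  have h2 := Cfsg.Agent.Lib.Helper19Det.detHom_apply ρ u
  rw [h1, hdet] at h2
  norm_num at h2

end Cfsg.Agent.Lib.H66SvN720
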