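import Mathlib
import Cfsg.Agent.Lib.Helper5Exc2

set_option autoImplicit false
set_option linter.unusedSectionVars false

namespace Cfsg.Agent.Lib.H66SvN756

open Cfsg Subgroup
open Cfsg.Agent.Lib.Helper5Exc
open Cfsg.Agent.Lib.Helper81Base Cfsg.Agent.Lib.Helper81BB Cfsg.Agent.Lib.Helper82Linear

section engine

variable {G : Type*} [Group G] [Fintype G] {p : ℕ} [Fact p.Prime]

/-- the degree data for `p = 7`, `m = 3` (two exceptional characters): same shape as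
`Helper5Exc.exists_deg_data0`. -/
theorem exists_deg_data7 (P : Sylow p G) (hP : Nat.card (P : Subgroup G) = p)
    (hm : (centralizer ((P : Subgroup G) : Set G)).relIndex
      (normalizer ((P : Subgroup G) : Set G)) = 3) (hp7 : p = 7) :
    ∃ (δ : ℤ) (A : IrrCharacter G → ℤ) (f : ℕ),
      (δ = 1 ∨ δ = -1) ∧ A (irrOne G) = 1 ∧ f ∣ Nat.card G ∧
      ((f : ℤ) ≡ δ * (3 : ℕ) [ZMOD p]) ∧ ∑ χ, A χ ^ 2 = (3 : ℕ) ∧
      (∀ χ, A χ ≠ 0 → (charDegree (χ : G → ℂ) : ℤ) ≡ A χ [ZMOD p]) ∧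
      ∑ χ, A χ * (charDegree (χ : G → ℂ) : ℤ) = δ * f := by
  classical
  obtain ⟨δ, d, A, Y, f, hδ, hA1, h1Y, hYc, hY, hf, hn, hX, hsum⟩ :=
    exists_deg_data P hP 3 hm (by omega)
  have hY2 : Y.card = 2 := by omega
  have h1 : ∑ χ ∈ insert (irrOne G) Y, A χ ^ 2 ≤ ∑ χ, A χ ^ 2 :=
    Finset.sum_le_sum_of_subset_of_nonneg (Finset.subset_univ _) (fun _ _ _ => sq_nonneg _)
  rw [Finset.sum_insert h1Y, hA1, Finset.sum_congr rfl (fun χ hχ => by rw [(hY χ hχ).1]),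
    Finset.sum_const, hn, nsmul_eq_mul, hY2] at h1
  push_cast at h1
  have hd : d = 0 ∨ d = δ := by
    have hlo : -1 ≤ d := by rcases hδ with h | h <;> rw [h] at h1 <;> nlinarith
    have hhi : d ≤ 1 := by rcases hδ with h | h <;> rw [h] at h1 <;> nlinarith
    rcases hδ with h | h <;> rw [h] at h1 ⊢ <;> interval_cases d <;> simp_all
  have hsplit : ∀ F : IrrCharacter G → ℤ, ∑ χ, (if χ ∈ Y then 0 else F χ)
      = ∑ χ, F χ - ∑ χ ∈ Y, F χ := by
    intro F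
    have e1 : ∑ χ, F χ = ∑ χ, (if χ ∈ Y then F χ else 0) + ∑ χ, (if χ ∈ Y then 0 else F χ) := by
      rw [← Finset.sum_add_distrib]
      apply Finset.sum_congr rfl
      intro χ _
      split_ifs <;> simp
    rw [e1, Finset.sum_ite_mem, Finset.univ_inter]
    ring
  obtain ⟨χ₀, hχ₀⟩ : Y.Nonempty := Finset.card_pos.mp (by omega)
  refine ⟨δ - 2 * d, fun χ => if χ ∈ Y then 0 else A χ, f, ?_, ?_, ?_, ?_, ?_, ?_, ?_⟩
  · rcases hd with h | h <;> rcases hδ with h' | h' <;> subst h <;> subst h' <;> simp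
  · simp only [if_neg h1Y, hA1]
  · rw [← (hY χ₀ hχ₀).2]
    exact charDegree_dvd χ₀
  · rcases hd with h | h
    · subst h
      simpa using hf
    · subst h
      have e : (d - 2 * d) * ((3 : ℕ) : ℤ) = d + d * ((3 : ℕ) : ℤ) - (p : ℤ) * d := by
        rw [hp7]; push_cast; ring
      rw [e]
      have h7 : d + d * ((3 : ℕ) : ℤ) - (p : ℤ) * d ≡ d + d * ((3 : ℕ) : ℤ) [ZMOD p] := by
        rw [Int.modEq_iff_dvd]
        exact ⟨d, by ring⟩
      exact hf.trans h7.symm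
  · have e : ∑ χ, (if χ ∈ Y then 0 else A χ) ^ 2 = ∑ χ, (if χ ∈ Y then 0 else A χ ^ 2) := by
      apply Finset.sum_congr rfl
      intro χ _
      split_ifs <;> simp
    rw [e, hsplit, hn, Finset.sum_congr rfl (fun χ hχ => by rw [(hY χ hχ).1]), Finset.sum_const,
      hY2]
    rcases hd with h | h <;> rcases hδ with h' | h' <;> subst h <;> subst h' <;> simp
  · intro χ hχ
    by_cases hmem : χ ∈ Y
    · simp [hmem] at hχ
    · simp only [if_neg hmem] at hχ ⊢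
      exact hX χ hmem hχ
  · have e : ∑ χ, (if χ ∈ Y then 0 else A χ) * (charDegree (χ : G → ℂ) : ℤ)
        = ∑ χ, (if χ ∈ Y then 0 else A χ * (charDegree (χ : G → ℂ) : ℤ)) := by
      apply Finset.sum_congr rfl
      intro χ _
      split_ifs <;> simp
    rw [e, hsplit, hsum,
      Finset.sum_congr rfl (fun χ hχ => by rw [(hY χ hχ).1, (hY χ hχ).2]), Finset.sum_const, hY2]
    simp only [nsmul_eq_mul]
    push_cast
    ring

/-- the degree equation for `m = 3`, `p = 7`. -/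
theorem deg_eq_three7 [IsSimpleGroup G] (hG : ¬ IsMulCommutative G) (P : Sylow p G)
    (hP : Nat.card (P : Subgroup G) = p)
    (hm : (centralizer ((P : Subgroup G) : Set G)).relIndex
      (normalizer ((P : Subgroup G) : Set G)) = 3) (hm2 : p = 7) :
    ∃ (x y f : ℕ) (s t δ : ℤ), (s = 1 ∨ s = -1) ∧ (t = 1 ∨ t = -1) ∧ (δ = 1 ∨ δ = -1) ∧
      x ∣ Nat.card G ∧ y ∣ Nat.card G ∧
      f ∣ Nat.card G ∧ x ≠ 1 ∧ y ≠ 1 ∧ ((x : ℤ) ≡ s [ZMOD p]) ∧ ((y : ℤ) ≡ t [ZMOD p]) ∧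
      ((f : ℤ) ≡ δ * 3 [ZMOD p]) ∧ 1 + s * x + t * y = δ * f := by
  classical
  obtain ⟨δ, A, f, hδ, hA1, hfd, hf, hn, hX, hsum⟩ := exists_deg_data7 P hP hm hm2
  set B : IrrCharacter G → ℤ := fun χ => if χ = irrOne G then 0 else A χ with hB
  have hsplit : ∀ F : IrrCharacter G → ℤ, ∑ χ, F χ = F (irrOne G)
      + ∑ χ, (if χ = irrOne G then 0 else F χ) := by
    intro F
    rw [← Finset.add_sum_erase Finset.univ F (Finset.mem_univ (irrOne G))]
    congr 1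
    rw [← Finset.add_sum_erase Finset.univ (fun χ => if χ = irrOne G then 0 else F χ)
      (Finset.mem_univ (irrOne G)), if_pos rfl, zero_add]
    apply Finset.sum_congr rfl
    intro χ hχ
    rw [if_neg (Finset.ne_of_mem_erase hχ)]
  have hB2 : ∑ χ, B χ * B χ = 2 := by
    rw [hsplit, hA1] at hn
    have : ∑ χ, B χ * B χ = ∑ χ, (if χ = irrOne G then 0 else A χ ^ 2) := by
      apply Finset.sum_congr rfl
      intro χ _
      simp only [hB]
      split_ifs <;> ring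
    rw [this]
    push_cast at hn
    linarith
  obtain ⟨χ₁, χ₂, h12, hs, ht, hz⟩ := Cfsg.Agent.Lib.Helper32Virt.int_sq_sum_two B hB2
  have hχ₁ : χ₁ ≠ irrOne G := by
    intro h
    simp only [hB, h, if_true] at hs
    omega
  have hχ₂ : χ₂ ≠ irrOne G := by
    intro h
    simp only [hB, h, if_true] at ht
    omega
  have hBA : B χ₁ = A χ₁ := by simp only [hB, if_neg hχ₁]
  have hBA2 : B χ₂ = A χ₂ := by simp only [hB, if_neg hχ₂]
  have hdeg1 : charDegree ((irrOne G : IrrCharacter G) : G → ℂ) = 1 := by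
    have : ((charDegree ((irrOne G : IrrCharacter G) : G → ℂ) : ℕ) : ℂ) = 1 := by
      rw [charDegree_castC]; rfl
    exact_mod_cast this
  refine ⟨charDegree (χ₁ : G → ℂ), charDegree (χ₂ : G → ℂ), f, A χ₁, A χ₂, δ, hBA ▸ hs,
    hBA2 ▸ ht, hδ, charDegree_dvd χ₁, charDegree_dvd χ₂, hfd,
    charDegree_ne_one hG χ₁ hχ₁, charDegree_ne_one hG χ₂ hχ₂,
    hX χ₁ (by rw [← hBA]; rcases hs with h | h <;> rw [h] <;> simp),
    hX χ₂ (by rw [← hBA2]; rcases ht with h | h <;> rw [h] <;> simp),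
    by simpa using hf, ?_⟩
  rw [← hsum, hsplit, hA1, hdeg1, add_assoc]
  congr 1
  rw [← Finset.sum_subset (Finset.subset_univ {χ₁, χ₂}), Finset.sum_pair h12, if_neg hχ₁,
    if_neg hχ₂]
  intro χ _ hne
  simp only [Finset.mem_insert, Finset.mem_singleton, not_or] at hne
  split_ifs with h1
  · rfl
  · have := hz χ hne.1 hne.2
    simp only [hB, if_neg h1] at this
    rw [this, zero_mul]

end engine

theorem not_simple {G : Type*} [Group G] [Finite G] [IsSimpleGroup G] : Nat.card G ≠ 756 := by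
  intro h
  classical
  let _ : Fintype G := Fintype.ofFinite G
  have hG : ¬ IsMulCommutative G :=
    Cfsg.Agent.Lib.Helper21Simple.not_comm_of_not_prime (by rw [h]; norm_num)
  have : Fact (Nat.Prime 7) := ⟨by norm_num⟩
  obtain ⟨P⟩ : Nonempty (Sylow 7 G) := inferInstance
  obtain ⟨hP, n, m, hn1, hn2, hm1, hm2, hmn, -, hm⟩ :=
    Cfsg.Agent.Lib.Helper5Exc.sylow_setup hG 108 (by rw [h]) (by norm_num) P
  have hm' : m = 3 := by
    have key : ∀ k ∈ Nat.divisors 108, ∀ n ∈ Nat.divisors k, n % 7 = 1 → n ≠ 1 →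
        ∀ m ∈ Nat.divisors 6, m ≠ 1 → m * n = k → m = 3 := by decide +kernel
    exact key (m * n) (Nat.mem_divisors.mpr ⟨hmn, by norm_num⟩) n
      (Nat.mem_divisors.mpr ⟨dvd_mul_left _ _, fun h0 => by rw [h0] at hmn; omega⟩) hn1 hn2 m
      (Nat.mem_divisors.mpr ⟨hm2, by norm_num⟩) hm1 rfl
  subst hm'
  obtain ⟨x, y, f, s, t, δ, hs, ht, hδ, hx, hy, hf, hx1, hy1, hxs, hyt, -, heq⟩ :=
    deg_eq_three7 hG P hP hm rfl
  rw [h] at hx hy hf
  have key : ∀ x ∈ Nat.divisors 756, x ≠ 1 → ∀ y ∈ Nat.divisors 756, y ≠ 1 →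
      ∀ s ∈ ({1, -1} : Finset ℤ), ∀ t ∈ ({1, -1} : Finset ℤ),
      ((x : ℤ) - s) % 7 = 0 → ((y : ℤ) - t) % 7 = 0 →
      ¬ ((1 + s * x + t * y).natAbs ∣ 756) := by decide +kernel
  apply key x (Nat.mem_divisors.mpr ⟨hx, by norm_num⟩) hx1 y (Nat.mem_divisors.mpr ⟨hy, by norm_num⟩)
    hy1 s (by rcases hs with rfl | rfl <;> simp) t (by rcases ht with rfl | rfl <;> simp)
    (Int.emod_eq_zero_of_dvd (Int.ModEq.dvd hxs.symm))
    (Int.emod_eq_zero_of_dvd (Int.ModEq.dvd hyt.symm))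
  rw [heq]
  rcases hδ with rfl | rfl <;> simpa using hf

end Cfsg.Agent.Lib.H66SvN756
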