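import Mathlib
import Cfsg.Agent.Lib.Helper5Exc2

set_option autoImplicit false

namespace Cfsg.Agent.Lib.H66SvN840

theorem not_simple {G : Type*} [Group G] [Finite G] [IsSimpleGroup G] : Nat.card G ≠ 840 := by
  intro h
  classical
  let _ : Fintype G := Fintype.ofFinite G
  have hG : ¬ IsMulCommutative G :=
    Cfsg.Agent.Lib.Helper21Simple.not_comm_of_not_prime (by rw [h]; norm_num)
  have : Fact (Nat.Prime 7) := ⟨by norm_num⟩
  obtain ⟨P⟩ : Nonempty (Sylow 7 G) := inferInstance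
  obtain ⟨hP, n, m, hn1, hn2, hm1, hm2, hmn, hn, hm⟩ :=
    Cfsg.Agent.Lib.Helper5Exc.sylow_setup hG 120 (by rw [h]) (by norm_num) P
  have hmul := Cfsg.Agent.Lib.Helper5Exc2.card_centralizer_mul P
  rw [hm, hn, h] at hmul
  have hcases : (n = 8 ∧ m = 3) ∨ (n = 15 ∧ m = 2) := by
    have key : ∀ k ∈ Nat.divisors 120, ∀ n ∈ Nat.divisors k, n % 7 = 1 → n ≠ 1 →
        ∀ m ∈ Nat.divisors 6, m ≠ 1 → m * n = k → (n = 8 ∧ m = 3) ∨ (n = 15 ∧ m = 2) := by
      decide +kernel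
    exact key (m * n) (Nat.mem_divisors.mpr ⟨hmn, by norm_num⟩) n
      (Nat.mem_divisors.mpr ⟨dvd_mul_left _ _, fun h0 => by rw [h0] at hmn; omega⟩) hn1 hn2 m
      (Nat.mem_divisors.mpr ⟨hm2, by norm_num⟩) hm1 rfl
  rcases hcases with ⟨rfl, rfl⟩ | ⟨rfl, rfl⟩
  · have hC := Cfsg.Agent.Lib.Helper5Exc2.card_centralizer_dvd P hP 8 hn hn2
      (fun q _ _ _ f hf1 _ hf3 => by omega)
    have h1 : Nat.card (Subgroup.centralizer ((P : Subgroup G) : Set G)) ≤ 7 :=
      Nat.le_of_dvd (by norm_num) hC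
    omega
  · have hc28 : Nat.card (Subgroup.centralizer ((P : Subgroup G) : Set G)) = 28 := by omega
    have hC := Cfsg.Agent.Lib.Helper5Exc2.card_centralizer_dvd P hP 15 hn hn2
      (fun q hq hqd hq7 f hf1 hf2 hf3 => by
        rw [hc28] at hqd
        have hq2 : q = 2 := by
          have h28 : (28 : ℕ) = 2 ^ 2 * 7 := by norm_num
          rw [h28] at hqd
          rcases (Nat.Prime.dvd_mul hq).1 hqd with h' | h'
          · exact (Nat.prime_dvd_prime_iff_eq hq Nat.prime_two).1 (hq.dvd_of_dvd_pow h')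
          · exact absurd ((Nat.prime_dvd_prime_iff_eq hq (by norm_num)).1 h') hq7
        subst hq2
        omega)
    rw [hc28] at hC
    omega

end Cfsg.Agent.Lib.H66SvN840
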