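import Mathlib

/-!
# Project 3626 (RC): `²G₂(q)³` is unrecognizable by spectrum (S3626, 10u) and S2515 (3u).  Vocabulary.

`F` a field of characteristic 3, `V = M₂(F) = N ⊗ N^(3)` (natural module of `SL₂(F)` tensor its Frobenius twist):
`g · M = g M (g^(3))ᵀ`.  `-1` acts trivially, so `PSL₂(F)` acts; `K = {±1} × PSL₂(F)`, `-1` acting as `-1`.
The group of the project is `H = V ⋊ K`.
-/

set_option autoImplicit false

namespace Cfsg.Agent.Lib.H67RCDefs

open Matrix

instance fact3 : Fact (Nat.Prime 3) := ⟨Nat.prime_three⟩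

variable (F : Type*) [Field F] [CharP F 3]

/-- the module -/
abbrev VV := Matrix (Fin 2) (Fin 2) F

variable {F}

/-- entrywise cube (Frobenius twist) -/
noncomputable def tw (g : Matrix (Fin 2) (Fin 2) F) : Matrix (Fin 2) (Fin 2) F :=
  (frobenius F 3).mapMatrix g

theorem tw_apply (g : Matrix (Fin 2) (Fin 2) F) (i j : Fin 2) : tw g i j = g i j ^ 3 := rfl

theorem tw_mul (g h : Matrix (Fin 2) (Fin 2) F) : tw (g * h) = tw g * tw h := map_mul _ g h

theorem tw_one : tw (1 : Matrix (Fin 2) (Fin 2) F) = 1 := map_one _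

/-- `M ↦ g M (g^(3))ᵀ` -/
noncomputable def act (g : Matrix (Fin 2) (Fin 2) F) : Module.End F (VV F) :=
  (LinearMap.mulLeft F g) ∘ₗ (LinearMap.mulRight F (tw g)ᵀ)

theorem act_apply (g M : Matrix (Fin 2) (Fin 2) F) : act g M = g * (M * (tw g)ᵀ) := rfl

/-- the representation of `SL₂(F)` -/
noncomputable def rho : Matrix.SpecialLinearGroup (Fin 2) F →* Module.End F (VV F) where
  toFun g := act (g : Matrix (Fin 2) (Fin 2) F)
  map_one' := by
    apply LinearMap.ext
    intro M
    rw [act_apply, Matrix.SpecialLinearGroup.coe_one, tw_one, transpose_one, mul_one, one_mul]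
    rfl
  map_mul' g h := by
    apply LinearMap.ext
    intro M
    rw [Module.End.mul_apply, act_apply, act_apply, act_apply, Matrix.SpecialLinearGroup.coe_mul, tw_mul,
      transpose_mul]
    simp only [Matrix.mul_assoc]

theorem rho_apply (g : Matrix.SpecialLinearGroup (Fin 2) F) (M : VV F) :
    rho g M = (g : Matrix (Fin 2) (Fin 2) F) * (M * (tw (g : Matrix (Fin 2) (Fin 2) F))ᵀ) := rfl

theorem center_le_ker : Subgroup.center (Matrix.SpecialLinearGroup (Fin 2) F) ≤ (rho (F := F)).ker := by
  intro z hz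
  rw [Matrix.SpecialLinearGroup.mem_center_iff] at hz
  obtain ⟨r, hr, hz⟩ := hz
  rw [MonoidHom.mem_ker]
  apply LinearMap.ext
  intro M
  rw [rho_apply, ← hz]
  have hr2 : r ^ 2 = 1 := by simpa using hr
  have h4 : r * r ^ 3 = 1 := by
    calc r * r ^ 3 = (r ^ 2) ^ 2 := by ring
      _ = 1 := by rw [hr2, one_pow]
  ext i j
  fin_cases i <;> fin_cases j <;>
    simp [Matrix.mul_apply, Fin.sum_univ_two, tw_apply, Matrix.scalar_apply, Matrix.diagonal] <;>
    linear_combination (M _ _) * h4

/-- the representation of `PSL₂(F)` -/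
noncomputable def rhoBar : Matrix.ProjectiveSpecialLinearGroup (Fin 2) F →* Module.End F (VV F) :=
  QuotientGroup.lift _ rho center_le_ker

theorem rhoBar_mk (g : Matrix.SpecialLinearGroup (Fin 2) F) :
    rhoBar (QuotientGroup.mk g : Matrix.ProjectiveSpecialLinearGroup (Fin 2) F) = rho g := rfl

/-- the sign -/
noncomputable def sgn : ℤˣ →* Module.End F (VV F) :=
  ((Int.castRingHom (Module.End F (VV F))) : ℤ →* Module.End F (VV F)).comp (Units.coeHom ℤ)

theorem sgn_apply (c : ℤˣ) (M : VV F) : sgn c M = ((c : ℤ) : F) • M := by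
  show ((((c : ℤ)) : Module.End F (VV F))) M = _
  rw [← zsmul_one (R := Module.End F (VV F)), LinearMap.smul_apply, Module.End.one_apply,
    Int.cast_smul_eq_zsmul]

variable (F)

/-- the acting group `{±1} × PSL₂(F)` -/
abbrev KK := ℤˣ × Matrix.ProjectiveSpecialLinearGroup (Fin 2) F

variable {F}

/-- the action of `K` -/
noncomputable def phi : KK F →* Module.End F (VV F) :=
  MonoidHom.noncommCoprod sgn rhoBar (fun c x => by
    show sgn c * rhoBar x = rhoBar x * sgn c
    apply LinearMap.ext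
    intro M
    rw [Module.End.mul_apply, Module.End.mul_apply, sgn_apply, sgn_apply, map_smul])

theorem phi_apply (c : ℤˣ) (g : Matrix.SpecialLinearGroup (Fin 2) F) (M : VV F) :
    phi (c, (QuotientGroup.mk g : Matrix.ProjectiveSpecialLinearGroup (Fin 2) F)) M =
      ((c : ℤ) : F) • ((g : Matrix (Fin 2) (Fin 2) F) * (M * (tw (g : Matrix (Fin 2) (Fin 2) F))ᵀ)) := by
  show (sgn c * rhoBar (QuotientGroup.mk g : Matrix.ProjectiveSpecialLinearGroup (Fin 2) F) :
    Module.End F (VV F)) M = _
  rw [Module.End.mul_apply, sgn_apply, rhoBar_mk, rho_apply]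

/-- `K` acts on `V` -/
noncomputable instance actK : DistribMulAction (KK F) (VV F) :=
  DistribMulAction.compHom (VV F) (phi (F := F))

theorem smul_def (k : KK F) (M : VV F) : k • M = phi k M := rfl

end Cfsg.Agent.Lib.H67RCDefs
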