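import Mathlib
import Cfsg.Agent.Lib.H67RCDefs

/-! Project 3626, piece `CH` (PURE 2x2 MATRICES). -/

set_option autoImplicit false

namespace Cfsg.Agent.Lib.H67RCCH

open Cfsg.Agent.Lib.H67RCDefs

variable {F : Type*} [Field F] [CharP F 3]

omit [CharP F 3] in
theorem sq_eq' (A : Matrix (Fin 2) (Fin 2) F) (h : A.det = 1) :
    A * A = Matrix.trace A • A - 1 := by
  rw [Matrix.det_fin_two] at h
  ext i j
  fin_cases i <;> fin_cases j <;>
    simp [Matrix.mul_apply, Fin.sum_univ_two, Matrix.trace_fin_two] <;>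
    first | ring1 | linear_combination (-1 : F) * h

theorem sq_eq (g : Matrix.SpecialLinearGroup (Fin 2) F) :
    (g : Matrix (Fin 2) (Fin 2) F) * (g : Matrix (Fin 2) (Fin 2) F) =
      Matrix.trace (g : Matrix (Fin 2) (Fin 2) F) • (g : Matrix (Fin 2) (Fin 2) F) - 1 :=
  sq_eq' _ g.2

theorem trace_tw (g : Matrix (Fin 2) (Fin 2) F) : Matrix.trace (tw g) = Matrix.trace g ^ 3 := by
  rw [Matrix.trace_fin_two, Matrix.trace_fin_two, tw_apply, tw_apply, add_pow_char]

omit [CharP F 3] in
/-- the abstract computation -/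
theorem no_fix_aux (A B M : Matrix (Fin 2) (Fin 2) F) (t t' e : F)
    (hA : A * A = t • A - 1) (hB : B * B = t' • B - 1) (he : e * e = 1) (hne : e * t ≠ t')
    (hM : e • (A * (M * B)) = M) : M = 0 := by
  have h0 : A * (M * B) = e • M := by
    have := congrArg (fun X => e • X) hM
    simp only [smul_smul, he, one_smul] at this
    exact this
  have hB1 : B * (t' • 1 - B) = 1 := by
    rw [mul_sub, mul_smul_comm, mul_one, hB]
    abel
  have h1 : A * M = e • (t' • M - M * B) := by
    calc A * M = A * (M * (B * (t' • 1 - B))) := by rw [hB1, mul_one]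
      _ = (A * (M * B)) * (t' • 1 - B) := by simp only [mul_assoc]
      _ = e • (t' • M - M * B) := by
          rw [h0, smul_mul_assoc, mul_sub, mul_smul_comm, mul_one]
  have h2 : A * (A * M) = (e * t') • (A * M) - M := by
    calc A * (A * M) = A * (e • (t' • M - M * B)) := by rw [← h1]
      _ = (e * t') • (A * M) - e • (A * (M * B)) := by
          rw [mul_smul_comm, mul_sub, mul_smul_comm, smul_sub, smul_smul]
      _ = (e * t') • (A * M) - M := by rw [hM]
  have h3 : A * (A * M) = t • (A * M) - M := by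
    rw [← mul_assoc, hA, sub_mul, smul_mul_assoc, one_mul]
  have h4 : (t - e * t') • (A * M) = 0 := by
    rw [sub_smul]
    have := h3.symm.trans h2
    have h5 : t • (A * M) = (e * t') • (A * M) := sub_left_injective this
    rw [h5, sub_self]
  have h6 : t - e * t' ≠ 0 := by
    intro h
    apply hne
    have : t = e * t' := sub_eq_zero.1 h
    rw [this, ← mul_assoc, he, one_mul]
  have h7 : A * M = 0 := (smul_eq_zero.1 h4).resolve_left h6
  have hA1 : (t • 1 - A) * A = 1 := by
    rw [sub_mul, smul_mul_assoc, one_mul, hA]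
    abel
  calc M = ((t • 1 - A) * A) * M := by rw [hA1, one_mul]
    _ = (t • 1 - A) * (A * M) := by rw [mul_assoc]
    _ = 0 := by rw [h7, mul_zero]

/-- `± g ⊗ g^(3)` has no non-zero fixed vector unless `± t = t^3` -/
theorem no_fix (g : Matrix.SpecialLinearGroup (Fin 2) F) (e : F) (he : e * e = 1)
    (hne : e * Matrix.trace (g : Matrix (Fin 2) (Fin 2) F) ≠
      Matrix.trace (g : Matrix (Fin 2) (Fin 2) F) ^ 3) (M : VV F)
    (hM : e • ((g : Matrix (Fin 2) (Fin 2) F) * (M * (tw (g : Matrix (Fin 2) (Fin 2) F)).transpose)) = M) :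
    M = 0 := by
  have hdet : ((tw (g : Matrix (Fin 2) (Fin 2) F)).transpose).det = 1 := by
    rw [Matrix.det_transpose]
    have h1 : (tw (g : Matrix (Fin 2) (Fin 2) F)).det
        = (frobenius F 3) (g : Matrix (Fin 2) (Fin 2) F).det := by
      rw [RingHom.map_det]
      rfl
    rw [h1, g.2, map_one]
  have hB := sq_eq' _ hdet
  rw [Matrix.trace_transpose, trace_tw] at hB
  exact no_fix_aux _ _ M _ _ e (sq_eq g) hB he hne hM

end Cfsg.Agent.Lib.H67RCCH
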