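import Mathlib

/-! Project 3626, piece `NoSq` (PURE MATHLIB): `-1` is not a square in `F_q`, `q = 3^odd`. -/

set_option autoImplicit false

namespace Cfsg.Agent.Lib.H67RCNoSq

theorem pow_mod_eight (α : ℕ) (hodd : Odd α) : 3 ^ α % 8 = 3 := by
  obtain ⟨k, rfl⟩ := hodd
  rw [pow_succ, pow_mul, Nat.mul_mod, Nat.pow_mod]
  norm_num

theorem no_sq {F : Type*} [Field F] [Fintype F] (α : ℕ) (hodd : Odd α)
    (hF : Fintype.card F = 3 ^ α) (t : F) : t ^ 2 ≠ -1 := by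
  intro h
  have h1 : IsSquare (-1 : F) := ⟨t, by rw [← h, sq]⟩
  rw [FiniteField.isSquare_neg_one_iff, hF] at h1
  have := pow_mod_eight α hodd
  omega

end Cfsg.Agent.Lib.H67RCNoSq
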