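import Mathlib
import Cfsg.Agent.Lib.H67RCDefs
import Cfsg.Agent.Lib.H67RCCH

/-! Project 3626, piece `Ord`. -/

set_option autoImplicit false

namespace Cfsg.Agent.Lib.H67RCOrd

open Cfsg.Agent.Lib.H67RCDefs

variable {F : Type*} [Field F] [CharP F 3]

theorem mk_eq_one (g : Matrix.SpecialLinearGroup (Fin 2) F) (c : F)
    (h : (g : Matrix (Fin 2) (Fin 2) F) = c • (1 : Matrix (Fin 2) (Fin 2) F)) :
    (QuotientGroup.mk g : Matrix.ProjectiveSpecialLinearGroup (Fin 2) F) = 1 := by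
  rw [QuotientGroup.eq_one_iff, Matrix.SpecialLinearGroup.mem_center_iff]
  refine ⟨c, ?_, ?_⟩
  · have h1 := g.2
    rw [h, Matrix.det_smul, Matrix.det_one, mul_one] at h1
    exact h1
  · rw [h]
    ext i j
    simp [Matrix.scalar_apply, Matrix.diagonal_apply, Matrix.one_apply]

theorem sq_one (g : Matrix.SpecialLinearGroup (Fin 2) F)
    (ht : Matrix.trace (g : Matrix (Fin 2) (Fin 2) F) = 0) :
    (QuotientGroup.mk g : Matrix.ProjectiveSpecialLinearGroup (Fin 2) F) ^ 2 = 1 := by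
  rw [← QuotientGroup.mk_pow]
  apply mk_eq_one _ (-1)
  rw [Matrix.SpecialLinearGroup.coe_pow, sq, Cfsg.Agent.Lib.H67RCCH.sq_eq, ht, zero_smul, zero_sub,
    neg_smul, one_smul]

theorem cube_one (g : Matrix.SpecialLinearGroup (Fin 2) F)
    (ht : Matrix.trace (g : Matrix (Fin 2) (Fin 2) F) ^ 2 = 1) :
    (QuotientGroup.mk g : Matrix.ProjectiveSpecialLinearGroup (Fin 2) F) ^ 3 = 1 := by
  rw [← QuotientGroup.mk_pow]
  apply mk_eq_one _ (-Matrix.trace (g : Matrix (Fin 2) (Fin 2) F))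
  have h := Cfsg.Agent.Lib.H67RCCH.sq_eq g
  set A := (g : Matrix (Fin 2) (Fin 2) F) with hA
  set t := Matrix.trace A with htdef
  rw [Matrix.SpecialLinearGroup.coe_pow, ← hA]
  calc A ^ 3 = A * (A * A) := by rw [pow_succ, sq, mul_assoc]
    _ = t • (A * A) - A := by rw [h, mul_sub, mul_smul_comm, mul_one, ← h]
    _ = (t ^ 2) • A - t • 1 - A := by rw [h, smul_sub, smul_smul, sq]
    _ = -t • 1 := by rw [ht, one_smul, neg_smul]; abel

end Cfsg.Agent.Lib.H67RCOrd
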