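import Mathlib
import Cfsg.Agent.Lib.H67RCDefs
import Cfsg.Agent.Lib.H67RCCH
import Cfsg.Agent.Lib.H67RCOrd
import Cfsg.Agent.Lib.H67RCNoSq

/-! Project 3626, piece `A`: the norm `1 + k + ... + k^(o(k)-1)` vanishes on `V` unless `o(k) ∣ 2` or `o(k) ∣ 3`.
Put `w = ∑ i<o, k^i • v ≠ 0`.  `k • w = w`: `Finset.smul_sum`, `← mul_smul`, `← pow_succ'`, then `Finset.sum_range_succ'` vs `Finset.sum_range_succ` and `pow_orderOf_eq_one`
  (`∑_{i<o} k^(i+1)•v = ∑_{i<o} k^i•v + k^o•v - k^0•v`).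
`k = (c, x)`, `x = QuotientGroup.mk g` (`QuotientGroup.mk_surjective`), `c = 1 ∨ c = -1` (`Int.units_eq_one_or`).  `smul_def`, `phi_apply` give
  `((c:ℤ):F) • (g * (w * (tw g)ᵀ)) = w`.  By `H67RCCH.no_fix` (contrapositive, `e = ((c:ℤ):F) = ±1`): `e * t = t^3`, `t = trace g`.
 * `c = 1`: `t*(t^2-1) = 0`: `t = 0` => `k^2 = (1, x^2) = 1` (`sq_one`, `Prod.ext`, `Prod.pow_mk`); `t^2 = 1` => `k^3 = 1` (`cube_one`).
 * `c = -1`: `t*(t^2+1) = 0`, `t^2 ≠ -1` (`no_sq`) so `t = 0`, `k^2 = ((-1)^2, x^2) = 1`.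
`orderOf_dvd_of_pow_eq_one`. -/

set_option autoImplicit false

namespace Cfsg.Agent.Lib.H67RCA

open Cfsg.Agent.Lib.H67RCDefs

theorem claimA {F : Type*} [Field F] [CharP F 3] [Fintype F] (α : ℕ) (hodd : Odd α)
    (hF : Fintype.card F = 3 ^ α) (k : KK F) (v : VV F)
    (hv : ∑ i ∈ Finset.range (orderOf k), k ^ i • v ≠ 0) : orderOf k ∣ 2 ∨ orderOf k ∣ 3 := by
  set w := ∑ i ∈ Finset.range (orderOf k), k ^ i • v with hw
  have hkw : k • w = w := by
    have h1 : k • w = ∑ i ∈ Finset.range (orderOf k), k ^ (i + 1) • v := by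
      rw [hw, Finset.smul_sum]
      refine Finset.sum_congr rfl fun i _ => ?_
      rw [← mul_smul, ← pow_succ']
    have h2 := Finset.sum_range_succ' (fun i => k ^ i • v) (orderOf k)
    have h3 := Finset.sum_range_succ (fun i => k ^ i • v) (orderOf k)
    rw [h3, pow_orderOf_eq_one, pow_zero] at h2
    rw [h1]
    exact (add_right_cancel h2).symm
  obtain ⟨c, x⟩ := k
  obtain ⟨g, rfl⟩ := QuotientGroup.mk_surjective x
  rw [smul_def, phi_apply] at hkw
  have he : (((c : ℤ) : F)) * (((c : ℤ) : F)) = 1 := by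
    rcases Int.units_eq_one_or c with rfl | rfl <;> simp
  have ht : (((c : ℤ) : F)) * Matrix.trace (g : Matrix (Fin 2) (Fin 2) F) =
      Matrix.trace (g : Matrix (Fin 2) (Fin 2) F) ^ 3 := by
    by_contra hne
    exact hv (Cfsg.Agent.Lib.H67RCCH.no_fix g _ he hne w hkw)
  set t := Matrix.trace (g : Matrix (Fin 2) (Fin 2) F) with htdef
  have hc2 : c ^ 2 = 1 := by
    rcases Int.units_eq_one_or c with rfl | rfl <;> simp
  have case0 : t = 0 → orderOf ((c, (QuotientGroup.mk g : Matrix.ProjectiveSpecialLinearGroup (Fin 2) F)) : KK F) ∣ 2 := by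
    intro h0
    apply orderOf_dvd_of_pow_eq_one
    rw [Prod.pow_mk, hc2, Cfsg.Agent.Lib.H67RCOrd.sq_one g h0]
    rfl
  rcases Int.units_eq_one_or c with rfl | rfl
  · have h1 : t * (t ^ 2 - 1) = 0 := by
      have : (1 : F) * t = t ^ 3 := by simpa using ht
      linear_combination -this
    rcases mul_eq_zero.1 h1 with h0 | h0
    · exact Or.inl (case0 h0)
    · right
      apply orderOf_dvd_of_pow_eq_one
      rw [Prod.pow_mk, one_pow, Cfsg.Agent.Lib.H67RCOrd.cube_one g (sub_eq_zero.1 h0)]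
      rfl
  · have h1 : t * (t ^ 2 + 1) = 0 := by
      have : (-1 : F) * t = t ^ 3 := by simpa using ht
      linear_combination -this
    rcases mul_eq_zero.1 h1 with h0 | h0
    · exact Or.inl (case0 h0)
    · exact absurd (eq_neg_of_add_eq_zero_left h0) (Cfsg.Agent.Lib.H67RCNoSq.no_sq α hodd hF t)

end Cfsg.Agent.Lib.H67RCA
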