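import Mathlib
import Cfsg.Agent.Lib.H67RCDefs
import Cfsg.Agent.Lib.H67RCOrd

/-! Project 3626, piece `B`: an element of order 3 of `K` with non-zero norm on `V` (gives elements of order 9 in `V ⋊ K`). -/

set_option autoImplicit false

namespace Cfsg.Agent.Lib.H67RCB

open Cfsg.Agent.Lib.H67RCDefs

private theorem entry {F : Type*} [Field F] [CharP F 3] (g : Matrix.SpecialLinearGroup (Fin 2) F) :
    ((((1 : ℤˣ), (QuotientGroup.mk g : Matrix.ProjectiveSpecialLinearGroup (Fin 2) F)) : KK F) •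
      (!![0, 0; 0, 1] : VV F)) 0 0 = (g 0 1) ^ 4 := by
  rw [smul_def, phi_apply]
  simp [Matrix.mul_apply, Fin.sum_univ_two, tw_apply, Matrix.vecMul, dotProduct,
    Matrix.transpose_apply]
  ring

theorem claimB {F : Type*} [Field F] [CharP F 3] :
    ∃ k : KK F, orderOf k = 3 ∧ ∃ v : VV F, ∑ i ∈ Finset.range 3, k ^ i • v ≠ 0 := by
  have h3 : (3 : F) = 0 := by exact_mod_cast CharP.cast_eq_zero F 3
  let u : Matrix.SpecialLinearGroup (Fin 2) F := ⟨!![1, 1; 0, 1], by simp [Matrix.det_fin_two]⟩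
  have hu01 : u 0 1 = 1 := rfl
  have hu2 : (u ^ 2) 0 1 = 2 := by
    rw [sq, Matrix.SpecialLinearGroup.coe_mul]
    simp [u, Matrix.mul_apply, Fin.sum_univ_two]
    norm_num
  have hk : ∀ i : ℕ, (((1 : ℤˣ), (QuotientGroup.mk u :
      Matrix.ProjectiveSpecialLinearGroup (Fin 2) F)) : KK F) ^ i
      = ((1 : ℤˣ), (QuotientGroup.mk (u ^ i) : Matrix.ProjectiveSpecialLinearGroup (Fin 2) F)) := by
    intro i
    rw [Prod.pow_mk, one_pow, QuotientGroup.mk_pow]
  refine ⟨((1 : ℤˣ), (QuotientGroup.mk u : Matrix.ProjectiveSpecialLinearGroup (Fin 2) F)), ?_,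
    (!![0, 0; 0, 1] : VV F), ?_⟩
  · apply orderOf_eq_prime
    · rw [Prod.pow_mk, one_pow, Cfsg.Agent.Lib.H67RCOrd.cube_one]
      · rfl
      · rw [Matrix.trace_fin_two]
        simp only [u]
        show ((1 : F) + 1) ^ 2 = 1
        linear_combination h3
    · intro h
      have h1 := entry u
      rw [h, one_smul, hu01] at h1
      simp at h1
  · intro h
    have h1 := congrFun (congrFun h 0) 0
    rw [Finset.sum_range_succ, Finset.sum_range_succ, Finset.sum_range_succ, Finset.sum_range_zero,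
      zero_add, Matrix.add_apply, Matrix.add_apply, hk 0, hk 1, hk 2, entry, entry, entry, hu2,
      pow_one, hu01, pow_zero] at h1
    simp only [Matrix.SpecialLinearGroup.coe_one, Matrix.zero_apply] at h1
    have h2 : (1 : Matrix (Fin 2) (Fin 2) F) 0 1 = 0 := by simp
    rw [h2] at h1
    have h4 : (-1 : F) = 0 := by linear_combination h1 - 6 * h3
    exact one_ne_zero (neg_eq_zero.1 h4)

end Cfsg.Agent.Lib.H67RCB
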