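import Mathlib

/-! Project 3626, piece `Lcm` (PURE LOGIC/ARITHMETIC): in a triple of element orders the third one can be taken in the smaller set `B`. -/

set_option autoImplicit false

namespace Cfsg.Agent.Lib.H67RCLcm

theorem lcm_set (A B : Set ℕ) (T1 T2 : ℕ) (hA : ∀ n, n ∈ A ↔ (n ∈ B ∨ n ∣ T1 ∨ n ∣ T2)) (h1 : 1 ∈ B) :
    {n : ℕ | ∃ a ∈ A, ∃ b ∈ A, ∃ c ∈ A, n = Nat.lcm a (Nat.lcm b c)} =
      {n : ℕ | ∃ a ∈ A, ∃ b ∈ A, ∃ c ∈ B, n = Nat.lcm a (Nat.lcm b c)} := by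
  have hBA : ∀ n, n ∈ B → n ∈ A := fun n hn => (hA n).2 (Or.inl hn)
  -- two elements dividing the same `T` can be merged
  have merge : ∀ x y z : ℕ, z ∈ A → Nat.lcm x y ∈ A →
      ∃ a ∈ A, ∃ b ∈ A, ∃ c ∈ B, Nat.lcm x (Nat.lcm y z) = Nat.lcm a (Nat.lcm b c) := by
    intro x y z hz hxy
    exact ⟨Nat.lcm x y, hxy, z, hz, 1, h1, by rw [Nat.lcm_one_right, Nat.lcm_assoc]⟩
  have m1 : ∀ x y : ℕ, x ∣ T1 → y ∣ T1 → Nat.lcm x y ∈ A :=
    fun x y hx hy => (hA _).2 (Or.inr (Or.inl (Nat.lcm_dvd hx hy)))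
  have m2 : ∀ x y : ℕ, x ∣ T2 → y ∣ T2 → Nat.lcm x y ∈ A :=
    fun x y hx hy => (hA _).2 (Or.inr (Or.inr (Nat.lcm_dvd hx hy)))
  have e1 : ∀ a b c : ℕ, Nat.lcm a (Nat.lcm b c) = Nat.lcm a (Nat.lcm c b) := by
    intro a b c; rw [Nat.lcm_comm b c]
  have e2 : ∀ a b c : ℕ, Nat.lcm a (Nat.lcm b c) = Nat.lcm b (Nat.lcm c a) := by
    intro a b c; rw [Nat.lcm_comm a, Nat.lcm_assoc]
  ext n
  simp only [Set.mem_ofPred_eq]
  constructor
  · rintro ⟨a, ha, b, hb, c, hc, rfl⟩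
    rcases (hA c).1 hc with hc' | hc'
    · exact ⟨a, ha, b, hb, c, hc', rfl⟩
    rcases (hA b).1 hb with hb' | hb'
    · exact ⟨a, ha, c, hc, b, hb', e1 a b c⟩
    rcases (hA a).1 ha with ha' | ha'
    · exact ⟨b, hb, c, hc, a, ha', e2 a b c⟩
    rcases ha' with ha' | ha' <;> rcases hb' with hb' | hb' <;> rcases hc' with hc' | hc'
    · exact merge a b c hc (m1 a b ha' hb')
    · exact merge a b c hc (m1 a b ha' hb')
    · rw [e1]; exact merge a c b hb (m1 a c ha' hc')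
    · rw [e2]; exact merge b c a ha (m2 b c hb' hc')
    · rw [e2]; exact merge b c a ha (m1 b c hb' hc')
    · rw [e1]; exact merge a c b hb (m2 a c ha' hc')
    · exact merge a b c hc (m2 a b ha' hb')
    · exact merge a b c hc (m2 a b ha' hb')
  · rintro ⟨a, ha, b, hb, c, hc, rfl⟩
    exact ⟨a, ha, b, hb, c, hBA c hc, rfl⟩

end Cfsg.Agent.Lib.H67RCLcm
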