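import Mathlib
import Cfsg.Agent.Lib.H67RCNoSq

/-! Project 3626, piece `Max` (PURE ARITHMETIC): the maximal elements (under divisibility) of the set of divisors of `6, 9, q-1, (q+1)/2`, `q = 3^α ≥ 27`, `α` odd. -/

set_option autoImplicit false

namespace Cfsg.Agent.Lib.H67RCMax

/-- abstract version: four pairwise non-dividing numbers. -/
private theorem max_four (x1 x2 x3 x4 : ℕ) (S : Set ℕ)
    (hS : ∀ n, n ∈ S ↔ (n ∣ x1 ∨ n ∣ x2 ∨ n ∣ x3 ∨ n ∣ x4))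
    (h12 : ¬ x1 ∣ x2) (h13 : ¬ x1 ∣ x3) (h14 : ¬ x1 ∣ x4)
    (h21 : ¬ x2 ∣ x1) (h23 : ¬ x2 ∣ x3) (h24 : ¬ x2 ∣ x4)
    (h31 : ¬ x3 ∣ x1) (h32 : ¬ x3 ∣ x2) (h34 : ¬ x3 ∣ x4)
    (h41 : ¬ x4 ∣ x1) (h42 : ¬ x4 ∣ x2) (h43 : ¬ x4 ∣ x3) :
    {n : ℕ | n ∈ S ∧ ∀ m ∈ S, n ∣ m → m = n} = ({x1, x2, x3, x4} : Set ℕ) := by
  ext n
  simp only [Set.mem_ofPred_eq, Set.mem_insert_iff, Set.mem_singleton_iff]
  constructor
  · rintro ⟨hn, hmax⟩
    rcases (hS n).1 hn with h | h | h | h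
    · exact Or.inl (hmax x1 ((hS _).2 (Or.inl dvd_rfl)) h).symm
    · exact Or.inr (Or.inl (hmax x2 ((hS _).2 (Or.inr (Or.inl dvd_rfl))) h).symm)
    · exact Or.inr (Or.inr (Or.inl (hmax x3 ((hS _).2 (Or.inr (Or.inr (Or.inl dvd_rfl)))) h).symm))
    · exact Or.inr (Or.inr (Or.inr (hmax x4 ((hS _).2 (Or.inr (Or.inr (Or.inr dvd_rfl)))) h).symm))
  · rintro (rfl | rfl | rfl | rfl)
    · refine ⟨(hS _).2 (Or.inl dvd_rfl), fun m hm hnm => ?_⟩
      rcases (hS m).1 hm with h | h | h | h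
      · exact Nat.dvd_antisymm h hnm
      · exact absurd (hnm.trans h) h12
      · exact absurd (hnm.trans h) h13
      · exact absurd (hnm.trans h) h14
    · refine ⟨(hS _).2 (Or.inr (Or.inl dvd_rfl)), fun m hm hnm => ?_⟩
      rcases (hS m).1 hm with h | h | h | h
      · exact absurd (hnm.trans h) h21
      · exact Nat.dvd_antisymm h hnm
      · exact absurd (hnm.trans h) h23
      · exact absurd (hnm.trans h) h24
    · refine ⟨(hS _).2 (Or.inr (Or.inr (Or.inl dvd_rfl))), fun m hm hnm => ?_⟩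
      rcases (hS m).1 hm with h | h | h | h
      · exact absurd (hnm.trans h) h31
      · exact absurd (hnm.trans h) h32
      · exact Nat.dvd_antisymm h hnm
      · exact absurd (hnm.trans h) h34
    · refine ⟨(hS _).2 (Or.inr (Or.inr (Or.inr dvd_rfl))), fun m hm hnm => ?_⟩
      rcases (hS m).1 hm with h | h | h | h
      · exact absurd (hnm.trans h) h41
      · exact absurd (hnm.trans h) h42
      · exact absurd (hnm.trans h) h43
      · exact Nat.dvd_antisymm h hnm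

theorem max_set (α : ℕ) (hα : 3 ≤ α) (hodd : Odd α) (S : Set ℕ)
    (hS : ∀ n, n ∈ S ↔ (n ∣ 6 ∨ n ∣ 9 ∨ n ∣ 3 ^ α - 1 ∨ n ∣ (3 ^ α + 1) / 2)) :
    {n : ℕ | n ∈ S ∧ ∀ m ∈ S, n ∣ m → m = n} = ({6, 9, 3 ^ α - 1, (3 ^ α + 1) / 2} : Set ℕ) := by
  have h8 := Cfsg.Agent.Lib.H67RCNoSq.pow_mod_eight α hodd
  have h27 : 27 ≤ 3 ^ α := by
    calc 27 = 3 ^ 3 := by norm_num
      _ ≤ 3 ^ α := Nat.pow_le_pow_right (by norm_num) hα
  have h3 : 3 ∣ 3 ^ α := dvd_pow_self 3 (by omega)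
  generalize 3 ^ α = q at *
  obtain ⟨s, rfl⟩ := h3
  apply max_four _ _ _ _ S hS
  · norm_num
  · rintro ⟨c, hc⟩; omega
  · rintro ⟨c, hc⟩; omega
  · norm_num
  · rintro ⟨c, hc⟩; omega
  · rintro ⟨c, hc⟩; omega
  · intro h; have := Nat.le_of_dvd (by norm_num) h; omega
  · intro h; have := Nat.le_of_dvd (by norm_num) h; omega
  · intro h; have := Nat.le_of_dvd (by omega) h; omega
  · intro h; have := Nat.le_of_dvd (by norm_num) h; omega
  · intro h; have := Nat.le_of_dvd (by norm_num) h; omega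
  · rintro ⟨c, hc⟩
    -- `b c = a`, `2 b = a + 2`
    obtain ⟨b, hb⟩ : ∃ b, b = (3 * s + 1) / 2 := ⟨_, rfl⟩
    rw [← hb] at hc
    have h2b : 2 * b = 3 * s + 1 := by omega
    have hb14 : 14 ≤ b := by omega
    have hc2 : c < 2 := by
      by_contra hcc
      have : b * 2 ≤ b * c := Nat.mul_le_mul_left b (by omega)
      omega
    interval_cases c <;> omega

end Cfsg.Agent.Lib.H67RCMax
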