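import Mathlib

set_option autoImplicit false

/-! Vocabulary of project 4407 (row S4407: `3^2 : D_8` on a faithful irreducible `F_2`-module). -/

namespace Cfsg.Agent.Lib.Helper68NDDefs

/-- the relations of `3^2 : D_8` in a group. -/
structure Rel {S : Type*} [Group S] (a b r s : S) : Prop where
  a3 : a ^ 3 = 1
  b3 : b ^ 3 = 1
  ab : a * b = b * a
  s2 : s ^ 2 = 1
  r4 : r ^ 4 = 1
  srs : s * r * s⁻¹ = r⁻¹
  sa : s * a * s⁻¹ = a
  sb : s * b * s⁻¹ = b⁻¹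
  ra : r * a * r⁻¹ = b
  rb : r * b * r⁻¹ = a⁻¹

/-- `X` is dihedral of order 8 with rotation `r` and reflection `s` (elementwise). -/
structure D8 {S : Type*} [Group S] (X : Subgroup S) (r s : S) : Prop where
  r_mem : r ∈ X
  s_mem : s ∈ X
  r4 : r ^ 4 = 1
  r2 : r ^ 2 ≠ 1
  s2 : s ^ 2 = 1
  srs : s * r * s⁻¹ = r⁻¹
  elts : ∀ x ∈ X, ∃ i : ℕ, x = r ^ i ∨ x = s * r ^ i
  s_nmem : ∀ i : ℕ, s ≠ r ^ i

/-- `B = {1, r², s, s r²}`. -/
def Ty1 {S : Type*} [Group S] (r s : S) (B : Subgroup S) : Prop :=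
  ∀ x, x ∈ B ↔ x = 1 ∨ x = r ^ 2 ∨ x = s ∨ x = s * r ^ 2

/-- `B = {1, r², s r, s r r²}`. -/
def Ty2 {S : Type*} [Group S] (r s : S) (B : Subgroup S) : Prop :=
  ∀ x, x ∈ B ↔ x = 1 ∨ x = r ^ 2 ∨ x = s * r ∨ x = s * r * r ^ 2

variable {M : Type*} [AddCommGroup M] [Module (ZMod 2) M]

/-- the same relations for operators, without inverses. -/
structure RelE (a b r s : Module.End (ZMod 2) M) : Prop where
  a3 : a * a * a = 1
  b3 : b * b * b = 1
  ab : a * b = b * a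
  s2 : s * s = 1
  r4 : r * r * r * r = 1
  sr : s * r = r * r * r * s
  sa : s * a = a * s
  sb : s * b = b * b * s
  ra : r * a = b * r
  rb : r * b = a * a * r

namespace RelE

variable {a b r s : Module.End (ZMod 2) M} (h : RelE a b r s) (m : M)
include h

theorem a3' : a (a (a m)) = m := LinearMap.congr_fun h.a3 m
theorem b3' : b (b (b m)) = m := LinearMap.congr_fun h.b3 m
theorem ab' : a (b m) = b (a m) := LinearMap.congr_fun h.ab m
theorem s2' : s (s m) = m := LinearMap.congr_fun h.s2 m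
theorem r4' : r (r (r (r m))) = m := LinearMap.congr_fun h.r4 m
theorem sr' : s (r m) = r (r (r (s m))) := LinearMap.congr_fun h.sr m
theorem sa' : s (a m) = a (s m) := LinearMap.congr_fun h.sa m
theorem sb' : s (b m) = b (b (s m)) := LinearMap.congr_fun h.sb m
theorem ra' : r (a m) = b (r m) := LinearMap.congr_fun h.ra m
theorem rb' : r (b m) = a (a (r m)) := LinearMap.congr_fun h.rb m

end RelE

/-- every submodule stable under the four operators is `⊥` or `⊤`. -/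
def IrrE (a b r s : Module.End (ZMod 2) M) : Prop :=
  ∀ N : Submodule (ZMod 2) M, (∀ m ∈ N, a m ∈ N) → (∀ m ∈ N, b m ∈ N) → (∀ m ∈ N, r m ∈ N) →
    (∀ m ∈ N, s m ∈ N) → N = ⊥ ∨ N = ⊤

/-- `C_M(a) ∩ C_M(b) = 0`. -/
def NoFix (a b : Module.End (ZMod 2) M) : Prop := ∀ m, a m = m → b m = m → m = 0

/-- `m + c m + c² m`. -/
def tr (c : Module.End (ZMod 2) M) (m : M) : M := m + c m + c (c m)

/-- a nonzero vector fixed by `a`, `s` and `r²`. -/
structure V0 (a r s : Module.End (ZMod 2) M) (v : M) : Prop where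
  ne : v ≠ 0
  av : a v = v
  sv : s v = v
  zv : r (r v) = v

/-- the action on `e₁ = v`, `e₂ = b v`, `e₃ = r v`, `e₄ = a (r v)`. -/
structure Tab (a b r s : Module.End (ZMod 2) M) (v : M) : Prop where
  a1 : a v = v
  a2 : a (b v) = b v
  a4 : a (a (r v)) = r v + a (r v)
  b2 : b (b v) = v + b v
  b3 : b (r v) = r v
  b4 : b (a (r v)) = a (r v)
  r2 : r (b v) = r v + a (r v)
  r3 : r (r v) = v
  r4 : r (a (r v)) = b v
  s1 : s v = v
  s2 : s (b v) = v + b v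
  s3 : s (r v) = r v
  s4 : s (a (r v)) = a (r v)

/-- `e₁, …, e₄` span `M`. -/
def Spn (e₁ e₂ e₃ e₄ : M) : Prop :=
  ∀ m : M, ∃ x₁ x₂ x₃ x₄ : ZMod 2, m = x₁ • e₁ + x₂ • e₂ + x₃ • e₃ + x₄ • e₄

/-- `e₁, …, e₄` are linearly independent. -/
def Ind (e₁ e₂ e₃ e₄ : M) : Prop :=
  ∀ x₁ x₂ x₃ x₄ : ZMod 2, x₁ • e₁ + x₂ • e₂ + x₃ • e₃ + x₄ • e₄ = 0 →
    x₁ = 0 ∧ x₂ = 0 ∧ x₃ = 0 ∧ x₄ = 0

end Cfsg.Agent.Lib.Helper68NDDefs
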