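import Mathlib
import Cfsg.Agent.Lib.Helper68NDDefs

set_option autoImplicit false

namespace Cfsg.Agent.Lib.H68NDCoord

open Cfsg.Agent.Lib.Helper68NDDefs

variable {M : Type*} [AddCommGroup M] [Module (ZMod 2) M]


/-- PIECE Coord (30m, pure).  The map `(ZMod 2)⁴ → M`, `x ↦ x₁ • e₁ + … + x₄ • e₄` is bijective (surjective by `hs`; injective: subtract and use `hi`), and `Nat.card (ZMod 2 × ZMod 2 × ZMod 2 × ZMod 2) = 16` (`Nat.card_prod`, `Nat.card_zmod`). -/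
theorem card_eq (e₁ e₂ e₃ e₄ : M) (hs : Spn e₁ e₂ e₃ e₄) (hi : Ind e₁ e₂ e₃ e₄) :
    Nat.card M = 16 := by
  let f : ZMod 2 × ZMod 2 × ZMod 2 × ZMod 2 → M :=
    fun x => x.1 • e₁ + x.2.1 • e₂ + x.2.2.1 • e₃ + x.2.2.2 • e₄
  have hf : Function.Bijective f := by
    constructor
    · rintro ⟨x1, x2, x3, x4⟩ ⟨y1, y2, y3, y4⟩ hxy
      simp only [f] at hxy
      have h0 : (x1 - y1) • e₁ + (x2 - y2) • e₂ + (x3 - y3) • e₃ + (x4 - y4) • e₄ = 0 := by
        simp only [sub_smul]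
        rw [← sub_eq_zero] at hxy
        rw [← hxy]
        abel
      obtain ⟨h1, h2, h3, h4⟩ := hi _ _ _ _ h0
      rw [sub_eq_zero] at h1 h2 h3 h4
      rw [h1, h2, h3, h4]
    · intro m
      obtain ⟨x1, x2, x3, x4, rfl⟩ := hs m
      exact ⟨(x1, x2, x3, x4), rfl⟩
  rw [← Nat.card_congr (Equiv.ofBijective f hf)]
  simp [Nat.card_prod]

end Cfsg.Agent.Lib.H68NDCoord
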