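import Mathlib
import Cfsg.Agent.Lib.Helper68NDDefs

set_option autoImplicit false

namespace Cfsg.Agent.Lib.H68NDFixS

open Cfsg.Agent.Lib.Helper68NDDefs

variable {M : Type*} [AddCommGroup M] [Module (ZMod 2) M]


/-- PIECE FixS (25m, pure).  `0`, `e₁`, `e₃` are three different fixed vectors (`hi 1 0 0 0`, `hi 0 0 1 0`, `hi 1 0 1 0`; `e₁ = e₃ → e₁ + e₃ = 0` in characteristic 2).  If the cardinality were 2, `Nat.card_eq_two_iff` gives `{x, y} = univ`: pigeonhole. -/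
theorem card_ne_two (e₁ e₂ e₃ e₄ : M) (hi : Ind e₁ e₂ e₃ e₄) (Z T : Module.End (ZMod 2) M)
    (Z1 : Z e₁ = e₁) (Z3 : Z e₃ = e₃) (T1 : T e₁ = e₁) (T3 : T e₃ = e₃) :
    Nat.card {m : M // Z m = m ∧ T m = m} ≠ 2 := by
  intro hc
  obtain ⟨x, y, hxy, huniv⟩ := Nat.card_eq_two_iff.mp hc
  have he1 : e₁ ≠ 0 := by
    intro h0
    have := hi 1 0 0 0 (by simp [h0])
    exact one_ne_zero this.1
  have he3 : e₃ ≠ 0 := by
    intro h0
    have := hi 0 0 1 0 (by simp [h0])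
    exact one_ne_zero this.2.2.1
  have he13 : e₁ ≠ e₃ := by
    intro h0
    have := hi 1 0 1 0 (by simp [h0, ZModModule.add_self])
    exact one_ne_zero this.1
  let p0 : {m : M // Z m = m ∧ T m = m} := ⟨0, map_zero Z, map_zero T⟩
  let p1 : {m : M // Z m = m ∧ T m = m} := ⟨e₁, Z1, T1⟩
  let p3 : {m : M // Z m = m ∧ T m = m} := ⟨e₃, Z3, T3⟩
  have h01 : p0 ≠ p1 := fun h => he1 (congrArg Subtype.val h).symm
  have h03 : p0 ≠ p3 := fun h => he3 (congrArg Subtype.val h).symm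
  have h13 : p1 ≠ p3 := fun h => he13 (congrArg Subtype.val h)
  have m0 : p0 ∈ ({x, y} : Set _) := huniv ▸ Set.mem_univ _
  have m1 : p1 ∈ ({x, y} : Set _) := huniv ▸ Set.mem_univ _
  have m3 : p3 ∈ ({x, y} : Set _) := huniv ▸ Set.mem_univ _
  simp only [Set.mem_insert_iff, Set.mem_singleton_iff] at m0 m1 m3
  rcases m0 with a0 | a0 <;> rcases m1 with a1 | a1 <;> rcases m3 with a3 | a3 <;>
    simp_all

end Cfsg.Agent.Lib.H68NDFixS
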