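import Mathlib
import Cfsg.Agent.Lib.Helper68NDDefs

set_option autoImplicit false

namespace Cfsg.Agent.Lib.H68NDFixT

open Cfsg.Agent.Lib.Helper68NDDefs

variable {M : Type*} [AddCommGroup M] [Module (ZMod 2) M]


/-- PIECE FixT (45m, pure).  Let `m = x₁ • e₁ + … + x₄ • e₄` (`hs`).  `Z m + m = x₂ • e₁ + x₄ • e₃`, so `Z m = m` iff `x₂ = x₄ = 0` (`hi`).  Then `T m = x₁ • e₃ + x₃ • e₁ = m` iff `x₁ = x₃` (`hi`).  So the fixed vectors are exactly `0` and `e₁ + e₃ ≠ 0` (`hi 1 0 1 0`):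
`Nat.card_eq_two_iff` with `⟨0, _⟩`, `⟨e₁ + e₃, _⟩`. -/
theorem card_two (e₁ e₂ e₃ e₄ : M) (hs : Spn e₁ e₂ e₃ e₄) (hi : Ind e₁ e₂ e₃ e₄)
    (Z T : Module.End (ZMod 2) M) (Z1 : Z e₁ = e₁) (Z2 : Z e₂ = e₁ + e₂) (Z3 : Z e₃ = e₃)
    (Z4 : Z e₄ = e₃ + e₄) (T1 : T e₁ = e₃) (T3 : T e₃ = e₁) :
    Nat.card {m : M // Z m = m ∧ T m = m} = 2 := by
  have z2 : ∀ x : ZMod 2, x = 0 ∨ x = 1 := by decide
  have he : e₁ + e₃ ≠ 0 := by
    intro h0
    have := hi 1 0 1 0 (by simp [h0])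
    exact one_ne_zero this.1
  rw [Nat.card_eq_two_iff]
  refine ⟨⟨0, map_zero Z, map_zero T⟩,
    ⟨e₁ + e₃, by rw [map_add, Z1, Z3], by rw [map_add, T1, T3, add_comm]⟩, ?_, ?_⟩
  · intro h
    exact he (congrArg Subtype.val h).symm
  · rw [Set.eq_univ_iff_forall]
    rintro ⟨m, hZ, hT⟩
    obtain ⟨x1, x2, x3, x4, rfl⟩ := hs m
    have hZ' : x2 • e₁ + (0 : ZMod 2) • e₂ + x4 • e₃ + (0 : ZMod 2) • e₄ = 0 := by
      simp only [map_add, map_smul, Z1, Z2, Z3, Z4, smul_add] at hZ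
      rw [← sub_eq_zero] at hZ
      rw [← hZ]
      simp only [zero_smul, add_zero]
      abel
    obtain ⟨h2, -, h4, -⟩ := hi _ _ _ _ hZ'
    subst h2 h4
    simp only [zero_smul, add_zero] at hT ⊢
    simp only [map_add, map_smul, T1, T3] at hT
    have hT' : (x1 - x3) • e₁ + (0 : ZMod 2) • e₂ + (x3 - x1) • e₃ + (0 : ZMod 2) • e₄ = 0 := by
      have := sub_eq_zero.mpr hT.symm
      simp only [sub_smul, zero_smul, add_zero]
      rw [← this]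
      abel
    obtain ⟨h13, -⟩ := hi _ _ _ _ hT'
    have h13' : x1 = x3 := sub_eq_zero.mp h13
    subst h13'
    rcases z2 x1 with rfl | rfl
    · left
      apply Subtype.ext
      simp
    · right
      apply Subtype.ext
      simp

end Cfsg.Agent.Lib.H68NDFixT
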