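import Mathlib
import Cfsg.Agent.Lib.Helper68NDDefs

set_option autoImplicit false

namespace Cfsg.Agent.Lib.H68NDIndep

open Cfsg.Agent.Lib.Helper68NDDefs

variable {M : Type*} [AddCommGroup M] [Module (ZMod 2) M]


/-- PIECE Indep (45m).  Let `x₁ • v + x₂ • b v + x₃ • r v + x₄ • a (r v) = 0`, `u := x₁ • v + x₂ • b v = x₃ • r v + x₄ • a (r v)` (characteristic 2).  `a u = u` (`t.a1`, `t.a2`), `b u = u` (`t.b3`, `t.b4`), so `u = 0` by `H`.
`x₁ • v + x₂ • b v = 0`: the elements of `ZMod 2` are `0, 1` (`fin_cases`/`decide`-style case split): `(1,0)`: `v = 0`; `(0,1)`: `b v = 0`, then `v + b v = b (b v) = 0`, `v = 0`; `(1,1)`: `b v = v`, so `v = 0` by `H` (`t.a1`).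
Same for `e₃ = r v ≠ 0` (`r (r v) = v ≠ 0`), `e₄ = a e₃`: `(0,1)`: `a e₃ = 0` gives `a (a e₃) = 0 = e₃ + a e₃`; `(1,1)`: `a e₃ = e₃`, `b e₃ = e₃`, so `e₃ = 0` by `H`. -/
theorem ind {a b r s : Module.End (ZMod 2) M} (H : NoFix a b) {v : M} (hv : v ≠ 0)
    (t : Tab a b r s v) : Ind v (b v) (r v) (a (r v)) := by
  intro x₁ x₂ x₃ x₄ h0
  have z2 : ∀ x : ZMod 2, x = 0 ∨ x = 1 := by decide
  have pair : ∀ (e f : M), e ≠ 0 → f ≠ 0 → e ≠ f → ∀ x y : ZMod 2, x • e + y • f = 0 →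
      x = 0 ∧ y = 0 := by
    intro e f he hf hef x y hxy
    rcases z2 x with rfl | rfl <;> rcases z2 y with rfl | rfl
    · exact ⟨rfl, rfl⟩
    · simp at hxy
      exact absurd hxy hf
    · simp at hxy
      exact absurd hxy he
    · exfalso
      apply hef
      rw [one_smul, one_smul] at hxy
      have := eq_neg_of_add_eq_zero_left hxy
      rw [this, ZModModule.neg_eq_self]
  have h1 : (x₁ • v + x₂ • b v) + (x₃ • r v + x₄ • a (r v)) = 0 := by
    rw [← h0]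
    abel
  have hu2 : x₁ • v + x₂ • b v = x₃ • r v + x₄ • a (r v) := by
    have := eq_neg_of_add_eq_zero_left h1
    rw [this, ZModModule.neg_eq_self]
  have hau : a (x₁ • v + x₂ • b v) = x₁ • v + x₂ • b v := by
    rw [map_add, map_smul, map_smul, t.a1, t.a2]
  have hbu : b (x₁ • v + x₂ • b v) = x₁ • v + x₂ • b v := by
    rw [hu2, map_add, map_smul, map_smul, t.b3, t.b4]
  have hu0 : x₁ • v + x₂ • b v = 0 := H _ hau hbu
  have hw0 : x₃ • r v + x₄ • a (r v) = 0 := by rw [← hu2, hu0]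
  have hbv : b v ≠ 0 := by
    intro h3
    have h4 := t.b2
    rw [h3, map_zero, add_zero] at h4
    exact hv h4.symm
  have hvb : v ≠ b v := by
    intro h3
    exact hv (H v t.a1 h3.symm)
  have hrv : r v ≠ 0 := by
    intro h3
    have h4 := t.r3
    rw [h3, map_zero] at h4
    exact hv h4.symm
  have harv : a (r v) ≠ 0 := by
    intro h3
    have h4 := t.a4
    rw [h3, map_zero, add_zero] at h4
    exact hrv h4.symm
  have hra : r v ≠ a (r v) := by
    intro h3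
    exact hrv (H _ h3.symm t.b3)
  obtain ⟨e1, e2⟩ := pair _ _ hv hbv hvb _ _ hu0
  obtain ⟨e3, e4⟩ := pair _ _ hrv harv hra _ _ hw0
  exact ⟨e1, e2, e3, e4⟩

end Cfsg.Agent.Lib.H68NDIndep
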