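import Mathlib
import Cfsg.Agent.Lib.Helper68NDDefs

set_option autoImplicit false

namespace Cfsg.Agent.Lib.H68NDSpan

open Cfsg.Agent.Lib.Helper68NDDefs

variable {M : Type*} [AddCommGroup M] [Module (ZMod 2) M]


/-- PIECE Span (45m).  `N := Submodule.span (ZMod 2) {v, b v, r v, a (r v)}` is stable under `a, b, r, s`: by `Submodule.span_induction` (or `Submodule.map_span_le`/`Submodule.span_le`) it is enough to check the 4 generators, which is the table `t`
(e.g. `a (a (r v)) = r v + a (r v) ∈ N`).  `v ∈ N`, `v ≠ 0`, so `N = ⊤` by `hi`.  Membership in the span of 4 vectors: `Submodule.mem_span_insert`, `Submodule.mem_span_singleton` (or `Submodule.mem_span_pair`). -/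
theorem spn {a b r s : Module.End (ZMod 2) M} (hi : IrrE a b r s) {v : M} (hv : v ≠ 0)
    (t : Tab a b r s v) : Spn v (b v) (r v) (a (r v)) := by
  set N := Submodule.span (ZMod 2) ({v, b v, r v, a (r v)} : Set M) with hN
  have m1 : v ∈ N := Submodule.subset_span (by simp)
  have m2 : b v ∈ N := Submodule.subset_span (by simp)
  have m3 : r v ∈ N := Submodule.subset_span (by simp)
  have m4 : a (r v) ∈ N := Submodule.subset_span (by simp)
  have stab : ∀ f : Module.End (ZMod 2) M, f v ∈ N → f (b v) ∈ N → f (r v) ∈ N →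
      f (a (r v)) ∈ N → ∀ m ∈ N, f m ∈ N := by
    intro f h1 h2 h3 h4 m hm
    have hle : N ≤ N.comap f := by
      rw [hN, Submodule.span_le]
      intro x hx
      simp only [Set.mem_insert_iff, Set.mem_singleton_iff] at hx
      rw [SetLike.mem_coe, Submodule.mem_comap]
      rcases hx with rfl | rfl | rfl | rfl <;> assumption
    exact hle hm
  rcases hi N
    (stab a (by rw [t.a1]; exact m1) (by rw [t.a2]; exact m2) m4
      (by rw [t.a4]; exact N.add_mem m3 m4))
    (stab b m2 (by rw [t.b2]; exact N.add_mem m1 m2) (by rw [t.b3]; exact m3)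
      (by rw [t.b4]; exact m4))
    (stab r m3 (by rw [t.r2]; exact N.add_mem m3 m4) (by rw [t.r3]; exact m1)
      (by rw [t.r4]; exact m2))
    (stab s (by rw [t.s1]; exact m1) (by rw [t.s2]; exact N.add_mem m1 m2)
      (by rw [t.s3]; exact m3) (by rw [t.s4]; exact m4)) with h0 | h0
  · exfalso
    rw [h0] at m1
    exact hv ((Submodule.mem_bot _).mp m1)
  · intro m
    have hm : m ∈ N := h0 ▸ Submodule.mem_top
    rw [hN, Submodule.mem_span_insert] at hm
    obtain ⟨x1, y1, hy1, rfl⟩ := hm
    rw [Submodule.mem_span_insert] at hy1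
    obtain ⟨x2, y2, hy2, rfl⟩ := hy1
    rw [Submodule.mem_span_insert] at hy2
    obtain ⟨x3, y3, hy3, rfl⟩ := hy2
    rw [Submodule.mem_span_singleton] at hy3
    obtain ⟨x4, rfl⟩ := hy3
    exact ⟨x1, x2, x3, x4, by abel⟩

end Cfsg.Agent.Lib.H68NDSpan
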