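import Mathlib
import Cfsg.Agent.Lib.Helper68NDDefs

set_option autoImplicit false

namespace Cfsg.Agent.Lib.H68NDTable

open Cfsg.Agent.Lib.Helper68NDDefs

variable {M : Type*} [AddCommGroup M] [Module (ZMod 2) M]


/-- PIECE Table (45m).  `w := v + b v + b (b v)` is fixed by `b` (`b3'`) and by `a` (`ab'`, `a v = v`), so `w = 0` by `H`: `b (b v) = v + b v` (characteristic 2: `x + y + t = 0 → t = x + y`).  `b (r v) = r (a v) = r v` (`ra'`).
`w' := r v + a (r v) + a (a (r v))` is fixed by `a` (`a3'`) and `b` (`ab'`), so `w' = 0`: `a (a (r v)) = r v + a (r v)`.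
`a (b v) = b (a v)`; `b (a (r v)) = a (b (r v))`; `r (b v) = a (a (r v))` (`rb'`); `r (a (r v)) = b (r (r v)) = b v` (`ra'`); `s (b v) = b (b (s v))` (`sb'`); `s (r v) = r (r (r (s v))) = r (r (r v)) = r v` (`sr'`, `zv`); `s (a (r v)) = a (s (r v))` (`sa'`). -/
theorem table {a b r s : Module.End (ZMod 2) M} (h : RelE a b r s) (H : NoFix a b) {v : M}
    (hv : V0 a r s v) : Tab a b r s v := by
  have key : ∀ x y t : M, x + y + t = 0 → t = x + y := by
    intro x y t h0
    have := eq_neg_of_add_eq_zero_right h0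
    rw [this, ZModModule.neg_eq_self]
  have b2 : b (b v) = v + b v := by
    apply key
    apply H
    · simp only [map_add, h.ab', hv.av]
    · simp only [map_add, h.b3']
      abel
  have b3 : b (r v) = r v := by rw [← h.ra', hv.av]
  have a4 : a (a (r v)) = r v + a (r v) := by
    apply key
    apply H
    · simp only [map_add, h.a3']
      abel
    · simp only [map_add, ← h.ab', b3]
  have s3 : s (r v) = r v := by rw [h.sr', hv.sv, hv.zv]
  exact
  { a1 := hv.av
    a2 := by rw [h.ab', hv.av]
    a4 := a4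
    b2 := b2
    b3 := b3
    b4 := by rw [← h.ab', b3]
    r2 := by rw [h.rb', a4]
    r3 := hv.zv
    r4 := by rw [h.ra', hv.zv]
    s1 := hv.sv
    s2 := by rw [h.sb', hv.sv, b2]
    s3 := s3
    s4 := by rw [h.sa', s3] }

end Cfsg.Agent.Lib.H68NDTable
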