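import Mathlib
import Cfsg.Agent.Lib.Helper68NDDefs

set_option autoImplicit false

namespace Cfsg.Agent.Lib.H68NDV0

open Cfsg.Agent.Lib.Helper68NDDefs

variable {M : Type*} [AddCommGroup M] [Module (ZMod 2) M]


/-- PIECE V0 (45m).  A `2`-group fixes a nonzero vector.  General trick: if `t (t x) = x` for all `x` and `u ≠ 0`, then `u' := if t u = u then u else u + t u` is `≠ 0` (`u + t u = 0 ↔ t u = u` in characteristic 2) and fixed by `t`.
Step 1, `t = s`: `v₁` is fixed by `s`, and by `a` (`a (s v) = s (a v) = s v`, `sa'`).  Step 2, `t = r r` (`r4'`): `v₀` built from `v₁`.  `a (a (r (r x))) = r (b (r x))`… precisely `r (r (a x)) = r (b (r x)) = a (a (r (r x)))` (`ra'`, `rb'`), so for `a x = x`: `a (a y) = y` with `y = r (r x)`, hence `a y = y` (`a3'`).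
`s (r (r x)) = r (r (s x))`: `sr'` twice gives `s r r = r⁶ s = r² s` (`r4'`).  So `r (r v₁)` is fixed by `a` and `s`, and so is `v₀`. -/
theorem exists_v0 {a b r s : Module.End (ZMod 2) M} (h : RelE a b r s) (v : M) (hv : v ≠ 0)
    (hav : a v = v) : ∃ v₀ : M, V0 a r s v₀ := by
  have trick : ∀ (t : Module.End (ZMod 2) M), (∀ x, t (t x) = x) → ∀ u : M, u ≠ 0 →
      ∃ u' : M, u' ≠ 0 ∧ t u' = u' ∧ (u' = u ∨ u' = u + t u) := by
    intro t ht u hu
    by_cases h0 : t u = u
    · exact ⟨u, hu, h0, Or.inl rfl⟩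
    · refine ⟨u + t u, ?_, ?_, Or.inr rfl⟩
      · intro h1
        apply h0
        have := eq_neg_of_add_eq_zero_right h1
        rw [this, ZModModule.neg_eq_self]
      · rw [map_add, ht, add_comm]
  obtain ⟨v₁, hv₁, hs₁, hor₁⟩ := trick s h.s2' v hv
  have ha₁ : a v₁ = v₁ := by
    rcases hor₁ with rfl | rfl
    · exact hav
    · rw [map_add, ← h.sa', hav]
  have hz : ∀ x, (r * r) ((r * r) x) = x := fun x => h.r4' x
  obtain ⟨v₀, hv₀, hz₀, hor₀⟩ := trick (r * r) hz v₁ hv₁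
  have haz : ∀ x, a x = x → a (r (r x)) = r (r x) := by
    intro x hx
    have h1 : a (a (r (r x))) = r (r x) := by
      rw [← h.rb', ← h.ra', hx]
    calc a (r (r x)) = a (a (a (r (r x)))) := by rw [h1]
      _ = r (r x) := h.a3' _
  have hsz : ∀ x, s (r (r x)) = r (r (s x)) := by
    intro x
    rw [h.sr', h.sr', h.r4']
  refine ⟨v₀, hv₀, ?_, ?_, hz₀⟩
  · rcases hor₀ with rfl | rfl
    · exact ha₁
    · rw [map_add, Module.End.mul_apply, haz _ ha₁, ha₁]
  · rcases hor₀ with rfl | rfl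
    · exact hs₁
    · rw [map_add, Module.End.mul_apply, hsz, hs₁]

end Cfsg.Agent.Lib.H68NDV0
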