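import Mathlib
import Cfsg.Agent.Lib.Helper68NDDefs
import Cfsg.Agent.Lib.H68NDV0
import Cfsg.Agent.Lib.H68NDTable
import Cfsg.Agent.Lib.H68NDSpan
import Cfsg.Agent.Lib.H68NDIndep
import Cfsg.Agent.Lib.H68NDCoord
import Cfsg.Agent.Lib.H68NDFixT
import Cfsg.Agent.Lib.H68NDFixS

set_option autoImplicit false

namespace Cfsg.Agent.Lib.H68NDCore

open Cfsg.Agent.Lib.Helper68NDDefs

variable {M : Type*} [AddCommGroup M] [Module (ZMod 2) M]


/-- Core lemma (assembly, helper68). -/
theorem core {a b r s : Module.End (ZMod 2) M} (h : RelE a b r s) (hi : IrrE a b r s)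
    (H : NoFix a b) (v : M) (hv : v ≠ 0) (hav : a v = v) :
    Nat.card M = 16 ∧ Nat.card {m : M // r (r m) = m ∧ s (r m) = m} = 2 ∧
      Nat.card {m : M // r (r m) = m ∧ s m = m} ≠ 2 := by
  obtain ⟨v₀, h0⟩ := H68NDV0.exists_v0 h v hv hav
  have t := H68NDTable.table h H h0
  have hs := H68NDSpan.spn hi h0.ne t
  have hind := H68NDIndep.ind H h0.ne t
  refine ⟨H68NDCoord.card_eq _ _ _ _ hs hind, ?_, ?_⟩
  · have := H68NDFixT.card_two _ _ _ _ hs hind (r * r) (s * r)
      (by rw [Module.End.mul_apply, t.r3])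
      (by rw [Module.End.mul_apply, t.r2, map_add, t.r3, t.r4])
      (by rw [Module.End.mul_apply, t.r3])
      (by rw [Module.End.mul_apply, t.r4, t.r2])
      (by rw [Module.End.mul_apply, t.s3])
      (by rw [Module.End.mul_apply, t.r3, t.s1])
    exact this
  · have := H68NDFixS.card_ne_two _ _ _ _ hind (r * r) s
      (by rw [Module.End.mul_apply, t.r3])
      (by rw [Module.End.mul_apply, t.r3])
      t.s1 t.s3
    exact this

end Cfsg.Agent.Lib.H68NDCore
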