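import Mathlib
import Cfsg.Agent.Lib.Helper68NDDefs

set_option autoImplicit false

namespace Cfsg.Agent.Lib.H68NDIdent

open Cfsg.Agent.Lib.Helper68NDDefs

variable {M : Type*} [AddCommGroup M] [Module (ZMod 2) M]


/-- PIECE Ident (45m, pure).  `tr c m = m + c m + c (c m)`.  Expanding (`a`, `b` commute, `a³ = b³ = 1`): `(a b)² = a² b²`, `(a b b)² = a² b⁴ = a² b`, so the right hand side is `4 m + Σ_{g ≠ 1} g m`, the sum over the 8 operators `a, a², b, b², ab, a²b², ab², a²b`,
while `tr a (tr b m) = m + Σ_{g ≠ 1} g m`; it is fixed by `a` and `b`, so it is `0` by `H`.  Hence RHS `= 3 m = m` (`m + m = 0`: `ZModModule.add_self`/`CharTwo`; `(2 : ZMod 2) = 0`).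
Hint: `simp only [tr, map_add, Module.End.mul_apply]`, normalise with `hab' : ∀ x, a (b x) = b (a x)` and `b (b (b x)) = x`, then `abel_nf` and kill even multiples. -/
theorem ident (a b : Module.End (ZMod 2) M) (a3 : ∀ m, a (a (a m)) = m) (b3 : ∀ m, b (b (b m)) = m)
    (hab : ∀ m, a (b m) = b (a m)) (H : NoFix a b) (m : M) :
    m = tr a m + tr b m + tr (a * b) m + tr (a * b * b) m := by
  have h2 : ∀ x : M, x + x = 0 := fun x => ZModModule.add_self x
  have hT : tr a (tr b m) = 0 := by
    apply H
    · simp only [tr, map_add, a3]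
      abel
    · simp only [tr, map_add, ← hab, b3]
      abel
  have hT' : m + b m + b (b m) + (a m + b (a m) + b (b (a m))) +
      (a (a m) + b (a (a m)) + b (b (a (a m)))) = 0 := by
    have := hT
    simpa only [tr, map_add, hab] using this
  simp only [tr, map_add, Module.End.mul_apply, hab, b3]
  calc m = m + 0 + 0 := by simp
    _ = m + (m + b m + b (b m) + (a m + b (a m) + b (b (a m))) +
      (a (a m) + b (a (a m)) + b (b (a (a m))))) + (m + m) := by rw [hT', h2]
    _ = _ := by abel

end Cfsg.Agent.Lib.H68NDIdent
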