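import Mathlib
import Cfsg.Agent.Lib.Helper68NDDefs
import Cfsg.Agent.Lib.H68NDIdent

set_option autoImplicit false

namespace Cfsg.Agent.Lib.H68NDDicho

open Cfsg.Agent.Lib.Helper68NDDefs

variable {M : Type*} [AddCommGroup M] [Module (ZMod 2) M]


/-- PIECE Dicho (50m).  Pick `m ≠ 0`.  By `Ident.ident` one of `tr c m`, `c ∈ {a, b, a b, a b b}`, is `≠ 0`; `v := tr c m` is fixed by `c` since `c³ = 1` (`(a b)³ = a³ b³`, `(a b b)³ = a³ b⁶`).
* `c = a`: left.  * `c = b`: `r v ≠ 0` (`r4'`) and `a (a (r v)) = r (b v) = r v` (`rb'`), so `a (r v) = r v` (`a3'`): left.  * `c = a b b`: right.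
* `c = a b`: `r (a (b v)) = b (r (b v)) = b (a (a (r v)))` (`ra'`, `rb'`), so `u := r v ≠ 0` satisfies `b (a (a u)) = u`; applying `a b b`: `(a b b) u = (a b b)(b a a) u = a³ b³ u = u`: right. -/
theorem dicho [Nontrivial M] {a b r s : Module.End (ZMod 2) M} (h : RelE a b r s)
    (H : NoFix a b) : (∃ v : M, v ≠ 0 ∧ a v = v) ∨ (∃ v : M, v ≠ 0 ∧ (a * b * b) v = v) := by
  obtain ⟨m, hm⟩ := exists_ne (0 : M)
  have hid := H68NDIdent.ident a b h.a3' h.b3' h.ab' H m
  have fixtr : ∀ c : Module.End (ZMod 2) M, (∀ x, c (c (c x)) = x) → ∀ x, c (tr c x) = tr c x := by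
    intro c hc x
    simp only [tr, map_add, hc]
    abel
  have c3ab : ∀ x, (a * b) ((a * b) ((a * b) x)) = x := by
    intro x
    simp only [Module.End.mul_apply, h.ab', h.b3', h.a3']
  have c3abb : ∀ x, (a * b * b) ((a * b * b) ((a * b * b) x)) = x := by
    intro x
    simp only [Module.End.mul_apply, h.ab', h.b3', h.a3']
  have rne : ∀ x : M, x ≠ 0 → r x ≠ 0 := by
    intro x hx h0
    apply hx
    have := h.r4' x
    rw [h0] at this
    simpa using this.symm
  by_cases h1 : tr a m = 0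
  swap
  · exact Or.inl ⟨_, h1, fixtr a h.a3' m⟩
  by_cases h2 : tr b m = 0
  swap
  · left
    refine ⟨r (tr b m), rne _ h2, ?_⟩
    have hb := fixtr b h.b3' m
    have h3 : a (a (r (tr b m))) = r (tr b m) := by rw [← h.rb', hb]
    calc a (r (tr b m)) = a (a (a (r (tr b m)))) := by rw [h3]
      _ = _ := h.a3' _
  by_cases h4 : tr (a * b * b) m = 0
  swap
  · exact Or.inr ⟨_, h4, fixtr _ c3abb m⟩
  have h5 : tr (a * b) m ≠ 0 := by
    intro h0
    apply hm
    rw [hid, h1, h2, h0, h4]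
    simp
  right
  have hv : a (b (tr (a * b) m)) = tr (a * b) m := fixtr _ c3ab m
  refine ⟨r (tr (a * b) m), rne _ h5, ?_⟩
  have h6 : b (a (a (r (tr (a * b) m)))) = r (tr (a * b) m) := by
    rw [← h.rb', ← h.ra', hv]
  show a (b (b (r (tr (a * b) m)))) = r (tr (a * b) m)
  conv_lhs => rw [← h6]
  rw [h.b3', h.a3']

end Cfsg.Agent.Lib.H68NDDicho
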