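import Mathlib
import Cfsg.Agent.Lib.Helper68NDDefs

set_option autoImplicit false

namespace Cfsg.Agent.Lib.H68NDDih

open Cfsg.Agent.Lib.Helper68NDDefs

/-- PIECE Dih (40m).  Take `e : ↥X ≃* DihedralGroup 4`, `r = (e.symm (DihedralGroup.r 1) : S)`, `s = (e.symm (DihedralGroup.sr 0) : S)`.  All relations hold in `DihedralGroup 4` by `decide`/`simp [DihedralGroup.r_mul_r, sr_mul_r, ...]`
and are transported by `e.symm` (`map_mul`, `map_pow`, `map_inv`) and `Subtype.val` (`Subgroup.coe_mul`, `Subgroup.coe_pow`...; injectivity for the `≠`).  `elts`: `e x = r i` or `sr i`; `r i = (r 1) ^ i.val`, `sr i = sr 0 * (r 1) ^ i.val` (`DihedralGroup.r_one_pow`).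
`s_nmem`: `sr 0 ≠ (r 1) ^ i = r i`. -/
theorem exists_rs {S : Type*} [Group S] (X : Subgroup S) (hX : Nonempty (↥X ≃* DihedralGroup 4)) :
    ∃ r s : S, D8 X r s := by
  obtain ⟨e⟩ := hX
  let R : ↥X := e.symm (DihedralGroup.r 1)
  let Sg : ↥X := e.symm (DihedralGroup.sr 0)
  have eR : e R = DihedralGroup.r 1 := e.apply_symm_apply _
  have eS : e Sg = DihedralGroup.sr 0 := e.apply_symm_apply _
  have R4 : R ^ 4 = 1 := by
    apply e.injective
    rw [map_pow, map_one, eR]
    decide
  have R2 : R ^ 2 ≠ 1 := by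
    intro h
    have h1 := congrArg e h
    rw [map_pow, map_one, eR] at h1
    revert h1
    decide
  have S2 : Sg ^ 2 = 1 := by
    apply e.injective
    rw [map_pow, map_one, eS]
    decide
  have SRS : Sg * R * Sg⁻¹ = R⁻¹ := by
    apply e.injective
    rw [map_mul, map_mul, map_inv, map_inv, eR, eS]
    decide
  have model : ∀ y : DihedralGroup 4, ∃ i : ℕ, y = (DihedralGroup.r 1) ^ i ∨
      y = DihedralGroup.sr 0 * (DihedralGroup.r 1) ^ i := by
    intro y
    cases y with
    | r i => exact ⟨i.val, Or.inl (by rw [DihedralGroup.r_one_pow]; simp)⟩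
    | sr i => exact ⟨i.val, Or.inr (by rw [DihedralGroup.r_one_pow, DihedralGroup.sr_mul_r]; simp)⟩
  refine ⟨(R : S), (Sg : S), R.2, Sg.2, ?_, ?_, ?_, ?_, ?_, ?_⟩
  · have := congrArg Subtype.val R4
    simpa using this
  · intro h
    apply R2
    apply Subtype.ext
    simpa using h
  · have := congrArg Subtype.val S2
    simpa using this
  · have := congrArg Subtype.val SRS
    simpa using this
  · intro x hx
    obtain ⟨i, h | h⟩ := model (e ⟨x, hx⟩)
    · refine ⟨i, Or.inl ?_⟩
      have h1 : (⟨x, hx⟩ : ↥X) = R ^ i := by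
        apply e.injective
        rw [h, map_pow, eR]
      have := congrArg Subtype.val h1
      simpa using this
    · refine ⟨i, Or.inr ?_⟩
      have h1 : (⟨x, hx⟩ : ↥X) = Sg * R ^ i := by
        apply e.injective
        rw [h, map_mul, map_pow, eR, eS]
      have := congrArg Subtype.val h1
      simpa using this
  · intro i h
    have h1 : Sg = R ^ i := by
      apply Subtype.ext
      simpa using h
    have h2 := congrArg e h1
    rw [map_pow, eR, eS, DihedralGroup.r_one_pow] at h2
    exact absurd h2 (by simp)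

end Cfsg.Agent.Lib.H68NDDih
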