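import Mathlib
import Cfsg.Agent.Lib.Helper68NDDefs

set_option autoImplicit false

namespace Cfsg.Agent.Lib.H68NDFixB

open Cfsg.Agent.Lib.Helper68NDDefs

variable {M : Type*} [AddCommGroup M] [Module (ZMod 2) M]


/-- PIECE FixB (30m).  `(∀ b ∈ B, ρ b m = m) ↔ ρ r (ρ r m) = m ∧ ρ s m = m` for `B = {1, r², s, s r²}` (`ρ (r ^ 2) m = ρ r (ρ r m)`: `pow_two`, `map_mul`, `Module.End.mul_apply`); then `Nat.card_congr (Equiv.subtypeEquivRight _)`. -/
theorem card_ty1 {S : Type*} [Group S] (ρ : Representation (ZMod 2) S M) {r s : S} {B : Subgroup S}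
    (h : Ty1 r s B) : Nat.card {m : M // ∀ b ∈ B, ρ b m = m}
      = Nat.card {m : M // ρ r (ρ r m) = m ∧ ρ s m = m} := by
  apply Nat.card_congr
  apply Equiv.subtypeEquivRight
  intro m
  have ez : ρ (r ^ 2) m = ρ r (ρ r m) := by rw [pow_two, map_mul, Module.End.mul_apply]
  constructor
  · intro hm
    refine ⟨?_, ?_⟩
    · rw [← ez]
      exact hm _ ((h _).mpr (Or.inr (Or.inl rfl)))
    · exact hm _ ((h _).mpr (Or.inr (Or.inr (Or.inl rfl))))
  · rintro ⟨h1, h2⟩ b hb
    rcases (h b).mp hb with rfl | rfl | rfl | rfl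
    · rw [map_one, Module.End.one_apply]
    · rw [ez, h1]
    · exact h2
    · rw [map_mul, Module.End.mul_apply, ez, h1, h2]

/-- the same for `B = {1, r², s r, s r r²}`. -/
theorem card_ty2 {S : Type*} [Group S] (ρ : Representation (ZMod 2) S M) {r s : S} {B : Subgroup S}
    (h : Ty2 r s B) : Nat.card {m : M // ∀ b ∈ B, ρ b m = m}
      = Nat.card {m : M // ρ r (ρ r m) = m ∧ ρ s (ρ r m) = m} := by
  apply Nat.card_congr
  apply Equiv.subtypeEquivRight
  intro m
  have ez : ρ (r ^ 2) m = ρ r (ρ r m) := by rw [pow_two, map_mul, Module.End.mul_apply]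
  have et : ρ (s * r) m = ρ s (ρ r m) := by rw [map_mul, Module.End.mul_apply]
  constructor
  · intro hm
    refine ⟨?_, ?_⟩
    · rw [← ez]
      exact hm _ ((h _).mpr (Or.inr (Or.inl rfl)))
    · rw [← et]
      exact hm _ ((h _).mpr (Or.inr (Or.inr (Or.inl rfl))))
  · rintro ⟨h1, h2⟩ b hb
    rcases (h b).mp hb with rfl | rfl | rfl | rfl
    · rw [map_one, Module.End.one_apply]
    · rw [ez, h1]
    · rw [et, h2]
    · rw [map_mul, Module.End.mul_apply, ez, h1, et, h2]

end Cfsg.Agent.Lib.H68NDFixB
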