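import Mathlib
import Cfsg.Agent.Lib.Helper68NDDefs

set_option autoImplicit false

namespace Cfsg.Agent.Lib.H68NDFourA

open Cfsg.Agent.Lib.Helper68NDDefs

theorem eq_of_sub {S : Type*} (B : Set S) (a b c d : S) (hc : B.ncard = 4)
    (hsub : ∀ x ∈ B, x = a ∨ x = b ∨ x = c ∨ x = d) :
    ∀ x, x ∈ B ↔ x = a ∨ x = b ∨ x = c ∨ x = d := by
  classical
  have h1 : B ⊆ ↑({a, b, c, d} : Finset S) := by
    intro x hx
    simpa using hsub x hx
  have h2 : B = ↑({a, b, c, d} : Finset S) := by
    apply Set.eq_of_subset_of_ncard_le h1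
    · rw [Set.ncard_coe_finset, hc]
      exact Finset.card_le_four
  intro x
  rw [h2]
  simp

/-- PIECE FourA (60m, pure).  The four-groups of `D_8`. -/
theorem four {S : Type*} [Group S] {X : Subgroup S} {r s : S} (h : D8 X r s) (B : Subgroup S)
    (hB : B ≤ X) (hc : Nat.card B = 4) (he : ∀ b ∈ B, b ^ 2 = 1) : Ty1 r s B ∨ Ty2 r s B := by
  have ss : s * s = 1 := by rw [← pow_two]; exact h.s2
  have sinv : s⁻¹ = s := inv_eq_of_mul_eq_one_right ss
  have srs : s * r * s = r⁻¹ := by have := h.srs; rwa [sinv] at this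
  have zz : r ^ 2 * r ^ 2 = 1 := by rw [← pow_add]; exact h.r4
  have zinv : (r ^ 2)⁻¹ = r ^ 2 := inv_eq_of_mul_eq_one_right zz
  have szs : s * r ^ 2 * s = r ^ 2 := by
    calc s * r ^ 2 * s = (s * r * s) * (s * r * s) := by
          rw [pow_two]
          calc s * (r * r) * s = s * r * 1 * r * s := by simp only [mul_assoc, one_mul]
            _ = s * r * (s * s) * r * s := by rw [ss]
            _ = (s * r * s) * (s * r * s) := by simp only [mul_assoc]
      _ = (r ^ 2)⁻¹ := by rw [srs, pow_two, mul_inv_rev]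
      _ = r ^ 2 := zinv
  have hr3 : (r ^ 3) ^ 2 = r ^ 2 := by
    rw [← pow_mul]
    calc r ^ (3 * 2) = r ^ 4 * r ^ 2 := by rw [← pow_add]
      _ = r ^ 2 := by rw [h.r4, one_mul]
  have hnr : r ∉ B := fun hr => h.r2 (he r hr)
  have hnr3 : r ^ 3 ∉ B := fun hr => h.r2 (by rw [← hr3]; exact he _ hr)
  -- every element of `B`
  have L1 : ∀ x ∈ B, x = 1 ∨ x = r ^ 2 ∨ (x = s ∨ x = s * r ^ 2) ∨ (x = s * r ∨ x = s * r * r ^ 2) := by
    intro x hx
    obtain ⟨i, hi⟩ := h.elts x (hB hx)
    have hmod : r ^ i = r ^ (i % 4) := pow_eq_pow_mod i h.r4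
    obtain ⟨j, hj, hij⟩ : ∃ j < 4, r ^ i = r ^ j := ⟨i % 4, Nat.mod_lt _ (by norm_num), hmod⟩
    rw [hij] at hi
    rcases hi with hi | hi
    · interval_cases j
      · left; simpa using hi
      · exact absurd (by rw [hi, pow_one] at hx; exact hx) hnr
      · right; left; exact hi
      · exact absurd (by rw [hi] at hx; exact hx) hnr3
    · interval_cases j
      · right; right; left; left; simpa using hi
      · right; right; right; left; simpa using hi
      · right; right; left; right; exact hi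
      · right; right; right; right
        rw [hi, pow_succ' r 2, mul_assoc]
  have L2 : ∀ x ∈ B, ∀ y ∈ B, (x = s ∨ x = s * r ^ 2) → (y = s * r ∨ y = s * r * r ^ 2) → False := by
    intro x hx y hy h1 h2
    have hxy := B.mul_mem hx hy
    rcases h1 with h1 | h1 <;> rcases h2 with h2 | h2 <;> rw [h1, h2] at hxy
    · apply hnr
      have : s * (s * r) = r := by rw [← mul_assoc, ss, one_mul]
      rwa [this] at hxy
    · apply hnr3
      have : s * (s * r * r ^ 2) = r ^ 3 := by
        rw [mul_assoc s r, ← mul_assoc s s, ss, one_mul, ← pow_succ']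
      rwa [this] at hxy
    · apply hnr3
      have : s * r ^ 2 * (s * r) = r ^ 3 := by
        rw [← mul_assoc, szs, ← pow_succ]
      rwa [this] at hxy
    · apply hnr
      have : s * r ^ 2 * (s * r * r ^ 2) = r := by
        calc s * r ^ 2 * (s * r * r ^ 2) = (s * r ^ 2 * s) * r * r ^ 2 := by simp only [mul_assoc]
          _ = r ^ 4 * r := by rw [szs, ← pow_succ, ← pow_add, ← pow_succ]
          _ = r := by rw [h.r4, one_mul]
      rwa [this] at hxy
  have hcard : (B : Set S).ncard = 4 := by rw [← Nat.card_coe_set_eq]; exact hc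
  by_cases hex : ∃ y ∈ B, (y = s * r ∨ y = s * r * r ^ 2)
  · obtain ⟨y, hy, hy2⟩ := hex
    right
    apply eq_of_sub (B : Set S) _ _ _ _ hcard
    intro x hx
    rcases L1 x hx with h1 | h1 | h1 | h1
    · exact Or.inl h1
    · exact Or.inr (Or.inl h1)
    · exact (L2 x hx y hy h1 hy2).elim
    · exact Or.inr (Or.inr h1)
  · left
    apply eq_of_sub (B : Set S) _ _ _ _ hcard
    intro x hx
    rcases L1 x hx with h1 | h1 | h1 | h1
    · exact Or.inl h1
    · exact Or.inr (Or.inl h1)
    · exact Or.inr (Or.inr h1)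
    · exact (hex ⟨x, hx, h1⟩).elim

end Cfsg.Agent.Lib.H68NDFourA
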