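import Mathlib
import Cfsg.Agent.Lib.Helper68NDDefs

set_option autoImplicit false

namespace Cfsg.Agent.Lib.H68NDFourB

open Cfsg.Agent.Lib.Helper68NDDefs

/-- the four-group `{1, u, v, v u}` -/
theorem exists_four {S : Type*} [Group S] (u v : S) (huv : u * v = v * u) (hu : u ^ 2 = 1)
    (hv : v ^ 2 = 1) (hu1 : u ≠ 1) (hv1 : v ≠ 1) (hne : u ≠ v) :
    ∃ B : Subgroup S, Nat.card B = 4 ∧ (∀ b ∈ B, b ^ 2 = 1) ∧
      ∀ x, x ∈ B ↔ x = 1 ∨ x = u ∨ x = v ∨ x = v * u := by
  classical
  have e1 : u * u = 1 := by rw [← pow_two]; exact hu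
  have e2 : v * v = 1 := by rw [← pow_two]; exact hv
  have e4 : u * (v * u) = v := by rw [← mul_assoc, huv, mul_assoc, e1, mul_one]
  have e5 : v * (v * u) = u := by rw [← mul_assoc, e2, one_mul]
  have e6 : v * u * u = v := by rw [mul_assoc, e1, mul_one]
  have e7 : v * u * v = u := by rw [mul_assoc, huv, ← mul_assoc, e2, one_mul]
  have e8 : v * u * (v * u) = 1 := by rw [← mul_assoc, e7, e1]
  let B : Subgroup S :=
    { carrier := {x | x = 1 ∨ x = u ∨ x = v ∨ x = v * u}
      one_mem' := Or.inl rfl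
      mul_mem' := by
        intro a b ha hb
        rcases ha with ha | ha | ha | ha <;> rcases hb with hb | hb | hb | hb <;> rw [ha, hb] <;>
          simp only [Set.mem_ofPred_eq, one_mul, mul_one, e1, e2, huv, e4, e5, e6, e7, e8, true_or,
            or_true]
      inv_mem' := by
        intro a ha
        rcases ha with ha | ha | ha | ha <;> rw [ha]
        · simp
        · rw [inv_eq_of_mul_eq_one_right e1]; simp
        · rw [inv_eq_of_mul_eq_one_right e2]; simp
        · rw [inv_eq_of_mul_eq_one_right e8]; simp }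
  have hmem : ∀ x, x ∈ B ↔ x = 1 ∨ x = u ∨ x = v ∨ x = v * u := fun x => Iff.rfl
  refine ⟨B, ?_, ?_, hmem⟩
  · have hset : (B : Set S) = ↑({1, u, v, v * u} : Finset S) := by
      ext x
      simp only [SetLike.mem_coe, hmem, Finset.coe_insert, Finset.coe_singleton,
        Set.mem_insert_iff, Set.mem_singleton_iff]
    have h1 : Nat.card B = (B : Set S).ncard := (Nat.card_coe_set_eq _)
    rw [h1, hset, Set.ncard_coe_finset]
    have n1 : v ≠ v * u := fun h => hu1 (by simpa using h.symm)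
    have n2 : u ≠ v * u := fun h => hv1 (by simpa using h.symm)
    have n3 : (1 : S) ≠ v * u := by
      intro h
      apply hne
      have : v * u * u = u := by rw [← h, one_mul]
      rw [e6] at this
      exact this.symm
    rw [Finset.card_insert_of_notMem, Finset.card_insert_of_notMem, Finset.card_insert_of_notMem,
      Finset.card_singleton]
    · simpa using n1
    · simp only [Finset.mem_insert, Finset.mem_singleton, not_or]
      exact ⟨hne, n2⟩
    · simp only [Finset.mem_insert, Finset.mem_singleton, not_or]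
      exact ⟨hu1.symm, hv1.symm, n3⟩
  · intro b hb
    rcases (hmem b).mp hb with h | h | h | h <;> rw [h, pow_two]
    · simp
    · exact e1
    · exact e2
    · exact e8

/-- PIECE FourB (45m, pure).  General lemma: if `u v : S` commute, `u ^ 2 = v ^ 2 = 1`, `u ≠ 1`, `v ≠ 1`, `u ≠ v`, then `{1, u, v, v * u}` is a subgroup with 4 elements of exponent 2.
Apply it with `u = r ^ 2`, `v = s` and with `u = r ^ 2`, `v = s * r`.  `s` commutes with `r ^ 2`: `s r² s⁻¹ = r⁻² = r²`.  `(s r)² = s r s r = (s r s⁻¹) r = 1` (`s⁻¹ = s`).  `s ≠ r ^ i` (`h.s_nmem`) gives `s ≠ 1`, `s ≠ r ^ 2`, `s * r ≠ 1`, `s * r ≠ r ^ 2`. -/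
theorem exists_ty {S : Type*} [Group S] {X : Subgroup S} {r s : S} (h : D8 X r s) :
    (∃ B : Subgroup S, B ≤ X ∧ Nat.card B = 4 ∧ (∀ b ∈ B, b ^ 2 = 1) ∧ Ty1 r s B) ∧
    (∃ B : Subgroup S, B ≤ X ∧ Nat.card B = 4 ∧ (∀ b ∈ B, b ^ 2 = 1) ∧ Ty2 r s B) := by
  have ss : s * s = 1 := by rw [← pow_two]; exact h.s2
  have sinv : s⁻¹ = s := inv_eq_of_mul_eq_one_right ss
  have srs : s * r * s = r⁻¹ := by have := h.srs; rwa [sinv] at this
  have sr : s * r = r⁻¹ * s := by
    calc s * r = s * r * (s * s) := by rw [ss, mul_one]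
      _ = (s * r * s) * s := by simp only [mul_assoc]
      _ = r⁻¹ * s := by rw [srs]
  have zz : r ^ 2 * r ^ 2 = 1 := by rw [← pow_add]; exact h.r4
  have zinv : (r ^ 2)⁻¹ = r ^ 2 := inv_eq_of_mul_eq_one_right zz
  have sz : s * r ^ 2 = r ^ 2 * s := by
    calc s * r ^ 2 = (s * r) * r := by rw [pow_two, mul_assoc]
      _ = r⁻¹ * (s * r) := by rw [sr, mul_assoc, ← sr]
      _ = (r ^ 2)⁻¹ * s := by rw [sr, ← mul_assoc, pow_two, mul_inv_rev]
      _ = r ^ 2 * s := by rw [zinv]
  have hz2 : (r ^ 2) ^ 2 = 1 := by rw [← pow_mul]; exact h.r4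
  have hzX : r ^ 2 ∈ X := X.pow_mem h.r_mem 2
  constructor
  · obtain ⟨B, hc, he, hm⟩ := exists_four (r ^ 2) s sz.symm hz2 h.s2 h.r2
      (fun h1 => h.s_nmem 0 (by rw [h1, pow_zero])) (fun h1 => h.s_nmem 2 h1.symm)
    refine ⟨B, ?_, hc, he, hm⟩
    intro x hx
    rcases (hm x).mp hx with h1 | h1 | h1 | h1 <;> rw [h1]
    · exact X.one_mem
    · exact hzX
    · exact h.s_mem
    · exact X.mul_mem h.s_mem hzX
  · have hsr2 : (s * r) ^ 2 = 1 := by
      rw [pow_two]
      calc s * r * (s * r) = (s * r * s) * r := by simp only [mul_assoc]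
        _ = 1 := by rw [srs, inv_mul_cancel]
    have hcomm : r ^ 2 * (s * r) = s * r * r ^ 2 := by
      rw [← mul_assoc, ← sz, mul_assoc, mul_assoc, ← pow_succ, ← pow_succ']
    obtain ⟨B, hc, he, hm⟩ := exists_four (r ^ 2) (s * r) hcomm hz2 hsr2 h.r2
      (fun h1 => h.s_nmem 3 (by
        have : s = r⁻¹ := eq_inv_of_mul_eq_one_left h1
        rw [this]
        exact inv_eq_of_mul_eq_one_right (by rw [← pow_succ']; exact h.r4)))
      (fun h1 => h.s_nmem 1 (by
        have : s * r = r * r := by rw [← h1, pow_two]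
        rw [pow_one]
        exact mul_right_cancel this))
    refine ⟨B, ?_, hc, he, hm⟩
    intro x hx
    rcases (hm x).mp hx with h1 | h1 | h1 | h1 <;> rw [h1]
    · exact X.one_mem
    · exact hzX
    · exact X.mul_mem h.s_mem h.r_mem
    · exact X.mul_mem (X.mul_mem h.s_mem h.r_mem) hzX

end Cfsg.Agent.Lib.H68NDFourB
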