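import Mathlib
import Cfsg.Agent.Lib.Helper68NDDefs

set_option autoImplicit false

namespace Cfsg.Agent.Lib.H68NDZInv

open Cfsg.Agent.Lib.Helper68NDDefs

theorem mem_zpowers_three' {G : Type*} [Group G] {a x : G} (ha3 : a ^ 3 = 1)
    (hx : x ∈ Subgroup.zpowers a) : x = 1 ∨ x = a ∨ x = a * a := by
  obtain ⟨n, rfl⟩ := Subgroup.mem_zpowers_iff.1 hx
  have h1 : a ^ n = a ^ (n % 3) := by
    conv_lhs => rw [← Int.mul_ediv_add_emod n 3]
    rw [zpow_add, zpow_mul]
    have : a ^ (3 : ℤ) = 1 := by exact_mod_cast ha3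
    rw [this, one_zpow, one_mul]
  have h2 : n % 3 = 0 ∨ n % 3 = 1 ∨ n % 3 = 2 := by omega
  rcases h2 with h | h | h
  · left; rw [h1, h, zpow_zero]
  · right; left; rw [h1, h, zpow_one]
  · right; right
    rw [h1, h]
    have : a ^ (2 : ℤ) = a ^ (2 : ℕ) := by exact_mod_cast rfl
    rw [this, pow_two]

/-- a subgroup of a group of order 9 containing two "independent" elements is everything -/
theorem eq_of_two {S : Type*} [Group S] [Finite S] (A I : Subgroup S) (hA9 : Nat.card ↥A = 9)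
    (hIA : I ≤ A) (d d' : S) (hd : d ∈ I) (hd' : d' ∈ I) (hd3 : d ^ 3 = 1) (hd1 : d ≠ 1)
    (h1 : d' ≠ 1) (h2 : d' ≠ d) (h3 : d' ≠ d * d) : I = A := by
  have hz3 : Nat.card (Subgroup.zpowers d) = 3 := by
    rw [Nat.card_zpowers]
    exact orderOf_eq_prime hd3 hd1
  have hle : Subgroup.zpowers d ≤ I := by rw [Subgroup.zpowers_le]; exact hd
  have hne : Subgroup.zpowers d ≠ I := by
    intro h
    have : d' ∈ Subgroup.zpowers d := by rw [h]; exact hd'
    rcases mem_zpowers_three' hd3 this with h | h | h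
    · exact h1 h
    · exact h2 h
    · exact h3 h
  have hlt : Nat.card (Subgroup.zpowers d) < Nat.card I := by
    by_contra hge
    push Not at hge
    exact hne (Subgroup.eq_of_le_of_card_ge hle hge)
  have hdvd : Nat.card I ∣ 3 ^ 2 := by
    have := Subgroup.card_dvd_of_le hIA
    rwa [hA9] at this
  obtain ⟨k, hk, hk'⟩ := (Nat.dvd_prime_pow Nat.prime_three).1 hdvd
  rw [hz3, hk'] at hlt
  apply Subgroup.eq_of_le_of_card_ge hIA
  rw [hA9, hk']
  interval_cases k
  · norm_num at hlt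
  · norm_num at hlt
  · norm_num

theorem eq_one_of_eq_inv {S : Type*} [Group S] {d : S} (hd3 : d ^ 3 = 1) (h : d = d⁻¹) : d = 1 := by
  have h2 : d * d = 1 := by
    nth_rewrite 2 [h]
    exact mul_inv_cancel d
  rw [pow_succ, pow_two, h2, one_mul] at hd3
  exact hd3

/-- PIECE ZInv (60m, pure).  `z = r ^ 2` inverts `A`. -/
theorem z_inverts {S : Type*} [Group S] [Finite S] (A : Subgroup S) [A.Normal]
    (hab : ∀ x ∈ A, ∀ y ∈ A, x * y = y * x) (h3 : ∀ x ∈ A, x ^ 3 = 1) (hA9 : Nat.card ↥A = 9)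
    (hAC : Subgroup.centralizer (A : Set S) = A) (r : S) (r4 : r ^ 4 = 1) (r2 : r ^ 2 ≠ 1) :
    ∀ x ∈ A, r ^ 2 * x * (r ^ 2)⁻¹ = x⁻¹ := by
  set z := r ^ 2 with hz
  have hzr : z = r * r := by rw [hz, pow_two]
  have hzz : z * z = 1 := by
    rw [hz, ← pow_add]; exact r4
  have hzinv : z⁻¹ = z := inv_eq_of_mul_eq_one_right hzz
  have hnorm : ∀ g : S, ∀ y ∈ A, g * y * g⁻¹ ∈ A := fun g y hy => ‹A.Normal›.conj_mem y hy g
  have hzA : z ∉ A := by
    intro h
    have := h3 z h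
    rw [pow_succ, pow_two, hzz, one_mul] at this
    exact r2 this
  have hzC : z ∉ Subgroup.centralizer (A : Set S) := by rw [hAC]; exact hzA
  rw [Subgroup.mem_centralizer_iff] at hzC
  push Not at hzC
  obtain ⟨x, hx, hxz⟩ := hzC
  have hxA : x ∈ A := hx
  set d := x * (z * x * z⁻¹)⁻¹ with hd
  have hdA : d ∈ A := A.mul_mem hxA (A.inv_mem (hnorm z x hxA))
  have hd1 : d ≠ 1 := by
    intro h
    apply hxz
    have h1 : x = z * x * z⁻¹ := mul_inv_eq_one.1 h
    calc x * z = (z * x * z⁻¹) * z := by rw [← h1]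
      _ = z * x := by group
  have hcd : z * d * z⁻¹ = d⁻¹ := by
    rw [hd]
    calc z * (x * (z * x * z⁻¹)⁻¹) * z⁻¹ = z * x * z⁻¹ * ((z * z) * x * (z * z)⁻¹)⁻¹ := by group
      _ = z * x * z⁻¹ * x⁻¹ := by rw [hzz]; group
      _ = _ := by group
  let I : Subgroup S :=
    { carrier := {y | y ∈ A ∧ z * y * z⁻¹ = y⁻¹}
      one_mem' := ⟨A.one_mem, by group⟩
      mul_mem' := by
        rintro a b ⟨ha, ha'⟩ ⟨hb, hb'⟩
        refine ⟨A.mul_mem ha hb, ?_⟩
        calc z * (a * b) * z⁻¹ = (z * a * z⁻¹) * (z * b * z⁻¹) := by group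
          _ = a⁻¹ * b⁻¹ := by rw [ha', hb']
          _ = (b * a)⁻¹ := by group
          _ = (a * b)⁻¹ := by rw [hab a ha b hb]
      inv_mem' := by
        rintro a ⟨ha, ha'⟩
        refine ⟨A.inv_mem ha, ?_⟩
        calc z * a⁻¹ * z⁻¹ = (z * a * z⁻¹)⁻¹ := by group
          _ = a⁻¹⁻¹ := by rw [ha'] }
  have hIA : I ≤ A := fun y hy => hy.1
  have hdI : d ∈ I := ⟨hdA, hcd⟩
  set d' := r * d * r⁻¹ with hd'
  have hd'A : d' ∈ A := hnorm r d hdA
  have hd'I : d' ∈ I := by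
    refine ⟨hd'A, ?_⟩
    rw [hd']
    calc z * (r * d * r⁻¹) * z⁻¹ = r * (z * d * z⁻¹) * r⁻¹ := by rw [hzr]; group
      _ = r * d⁻¹ * r⁻¹ := by rw [hcd]
      _ = _ := by group
  have hcd2 : z * d * z⁻¹ = r * d' * r⁻¹ := by rw [hd', hzr]; group
  have hd3 := h3 d hdA
  have hIeq : I = A := by
    apply eq_of_two A I hA9 hIA d d' hdI hd'I hd3 hd1
    · intro h
      apply hd1
      have : d = r⁻¹ * d' * r := by rw [hd']; group
      rw [this, h]; group
    · intro h
      apply hd1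
      apply eq_one_of_eq_inv hd3
      rw [← hcd, hcd2, h]
      exact h.symm.trans (by rw [hd'])
    · intro h
      apply hd1
      apply eq_one_of_eq_inv hd3
      rw [← hcd, hcd2, h]
      have e : r * (d * d) * r⁻¹ = d' * d' := by rw [hd']; group
      rw [e, h]
      have : d * d * (d * d) = d ^ 3 * d := by
        rw [pow_succ, pow_two]; group
      rw [this, hd3, one_mul]
  intro y hy
  have : y ∈ I := by rw [hIeq]; exact hy
  exact this.2

end Cfsg.Agent.Lib.H68NDZInv
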