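import Mathlib
import Cfsg.Agent.Lib.Helper68NDDefs
import Cfsg.Agent.Lib.H68NDZInv

set_option autoImplicit false

namespace Cfsg.Agent.Lib.H68NDGens

open Cfsg.Agent.Lib.Helper68NDDefs Cfsg.Agent.Lib.H68NDZInv

/-- PIECE Gens (60m). -/
theorem exists_ab {S : Type*} [Group S] [Finite S] (A : Subgroup S) [A.Normal]
    (hab : ∀ x ∈ A, ∀ y ∈ A, x * y = y * x) (h3 : ∀ x ∈ A, x ^ 3 = 1) (hA9 : Nat.card ↥A = 9)
    (hAC : Subgroup.centralizer (A : Set S) = A) {X : Subgroup S} {r s : S} (h : D8 X r s) :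
    ∃ a b : S, Rel a b r s ∧ a ≠ 1 ∧ A ≤ Subgroup.closure {a, b} := by
  have hinv := z_inverts A hab h3 hA9 hAC r h.r4 h.r2
  set z := r ^ 2 with hz
  have hzr : z = r * r := by rw [hz, pow_two]
  have hzz : z * z = 1 := by
    rw [hz, ← pow_add]; exact h.r4
  have hzinv : z⁻¹ = z := inv_eq_of_mul_eq_one_right hzz
  have hss : s * s = 1 := by rw [← pow_two]; exact h.s2
  have hsinv : s⁻¹ = s := inv_eq_of_mul_eq_one_right hss
  have hnorm : ∀ g : S, ∀ y ∈ A, g * y * g⁻¹ ∈ A := fun g y hy => ‹A.Normal›.conj_mem y hy g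
  have hsz : s * z * s⁻¹ = z := by
    calc s * z * s⁻¹ = (s * r * s⁻¹) * (s * r * s⁻¹) := by rw [hzr]; group
      _ = r⁻¹ * r⁻¹ := by rw [h.srs]
      _ = z⁻¹ := by rw [hzr]; group
      _ = z := hzinv
  have hsz' : s * z = z * s := by
    calc s * z = (s * z * s⁻¹) * s := by group
      _ = z * s := by rw [hsz]
  obtain ⟨w, hw⟩ : ∃ w, w = s * z := ⟨_, rfl⟩
  have hww : w * w = 1 := by
    calc w * w = s * (z * s) * z := by rw [hw]; group
      _ = s * (s * z) * z := by rw [hsz']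
      _ = (s * s) * (z * z) := by group
      _ = 1 := by rw [hss, hzz, one_mul]
  have hw1 : w ≠ 1 := by
    intro h1
    apply h.s_nmem 2
    rw [hw] at h1
    have : s = z⁻¹ := eq_inv_of_mul_eq_one_left h1
    rw [this, hzinv]
  have hwA : w ∉ A := by
    intro hA
    have := h3 w hA
    rw [pow_succ, pow_two, hww, one_mul] at this
    exact hw1 this
  have hwC : w ∉ Subgroup.centralizer (A : Set S) := by rw [hAC]; exact hwA
  rw [Subgroup.mem_centralizer_iff] at hwC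
  push Not at hwC
  obtain ⟨x, hx, hxw⟩ := hwC
  have hxA : x ∈ A := hx
  have hsx : s * x⁻¹ * s⁻¹ ≠ x := by
    intro h1
    apply hxw
    have h2 : w * x * w⁻¹ = x := by
      calc w * x * w⁻¹ = s * (z * x * z⁻¹) * s⁻¹ := by rw [hw]; group
        _ = s * x⁻¹ * s⁻¹ := by rw [hinv x hxA]
        _ = x := h1
    calc x * w = (w * x * w⁻¹) * w := by rw [h2]
      _ = w * x := by group
  set a := x * (s * x * s⁻¹) with ha
  have hsxA : s * x * s⁻¹ ∈ A := hnorm s x hxA
  have haA : a ∈ A := A.mul_mem hxA hsxA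
  have ha1 : a ≠ 1 := by
    intro h1
    apply hsx
    have h2 : s * x * s⁻¹ = x⁻¹ := (eq_inv_of_mul_eq_one_right h1)
    calc s * x⁻¹ * s⁻¹ = (s * x * s⁻¹)⁻¹ := by group
      _ = x := by rw [h2, inv_inv]
  have hsa : s * a * s⁻¹ = a := by
    calc s * a * s⁻¹ = (s * x * s⁻¹) * ((s * s) * x * (s * s)⁻¹) := by rw [ha]; group
      _ = (s * x * s⁻¹) * x := by rw [hss]; group
      _ = a := by rw [ha, hab _ hsxA _ hxA]
  set b := r * a * r⁻¹ with hb
  have hbA : b ∈ A := hnorm r a haA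
  have hrb : r * b * r⁻¹ = a⁻¹ := by
    calc r * b * r⁻¹ = z * a * z⁻¹ := by rw [hb, hzr]; group
      _ = a⁻¹ := hinv a haA
  have hr4 : r * r * r * r = 1 := by
    have := h.r4
    rw [pow_succ, pow_succ, pow_two] at this
    exact this
  have hr3 : r * r * r = r⁻¹ := eq_inv_of_mul_eq_one_left hr4
  have hsb : s * b * s⁻¹ = b⁻¹ := by
    have e1 : s * b * s⁻¹ = r⁻¹ * a * r := by
      calc s * b * s⁻¹ = (s * r * s⁻¹) * (s * a * s⁻¹) * (s * r * s⁻¹)⁻¹ := by rw [hb]; group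
        _ = r⁻¹ * a * r := by rw [h.srs, hsa, inv_inv]
    have e2 : b⁻¹ = r⁻¹ * a * r := by
      calc b⁻¹ = r * a⁻¹ * r⁻¹ := by rw [hb]; group
        _ = r * (z * a * z⁻¹) * r⁻¹ := by rw [hinv a haA]
        _ = (r * r * r) * a * (r * r * r)⁻¹ := by rw [hzr]; group
        _ = r⁻¹ * a * r := by rw [hr3, inv_inv]
    rw [e1, e2]
  have hb1 : b ≠ 1 := by
    intro h1
    apply ha1
    have : a = r⁻¹ * b * r := by rw [hb]; group
    rw [this, h1]; group
  have hb3 := h3 b hbA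
  refine ⟨a, b, ⟨h3 a haA, hb3, hab a haA b hbA, h.s2, h.r4, h.srs, hsa, hsb, rfl, hrb⟩, ha1, ?_⟩
  have hle : Subgroup.closure {a, b} ≤ A := by
    rw [Subgroup.closure_le]
    rintro y (rfl | rfl)
    · exact haA
    · exact hbA
  have heq : Subgroup.closure {a, b} = A := by
    apply eq_of_two A _ hA9 hle a b (Subgroup.subset_closure (by simp))
      (Subgroup.subset_closure (by simp)) (h3 a haA) ha1 hb1
    · intro h1
      apply hb1
      apply eq_one_of_eq_inv hb3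
      rw [← hsb]
      nth_rewrite 2 [h1]
      rw [hsa, h1]
    · intro h1
      apply hb1
      apply eq_one_of_eq_inv hb3
      rw [← hsb]
      nth_rewrite 2 [h1]
      have : s * (a * a) * s⁻¹ = (s * a * s⁻¹) * (s * a * s⁻¹) := by group
      rw [this, hsa, h1]
  exact heq.ge

end Cfsg.Agent.Lib.H68NDGens
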