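import Mathlib
import Cfsg.Agent.Lib.Helper68NDDefs

set_option autoImplicit false

namespace Cfsg.Agent.Lib.H68NDH1

open Cfsg.Agent.Lib.Helper68NDDefs

variable {M : Type*} [AddCommGroup M] [Module (ZMod 2) M]


/-- PIECE H1 (40m).  `N := {m | a m = m ∧ b m = m}` (`LinearMap.ker (a - 1) ⊓ LinearMap.ker (b - 1)`, or a `Submodule` by hand) is stable under `a`, `b` (they commute), `r` (`b (r m) = r (a m) = r m` by `ra'`; `a (a (r m)) = r (b m) = r m` by `rb'`, and then
`a (r m) = a (a (a (r m))) = r m` by `a3'`), `s` (`a (s m) = s (a m)` by `sa'`; `b (b (s m)) = s (b m) = s m` by `sb'`, then `b3'`).  By `hi`: `N = ⊥` (done) or `N = ⊤`, and then `a = 1`. -/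
theorem noFix {a b r s : Module.End (ZMod 2) M} (h : RelE a b r s) (hi : IrrE a b r s)
    (hne : a ≠ 1) : NoFix a b := by
  let N : Submodule (ZMod 2) M :=
    { carrier := {m | a m = m ∧ b m = m}
      add_mem' := by
        rintro x y ⟨h1, h2⟩ ⟨h3, h4⟩
        exact ⟨by rw [map_add, h1, h3], by rw [map_add, h2, h4]⟩
      zero_mem' := ⟨map_zero a, map_zero b⟩
      smul_mem' := by
        rintro c x ⟨h1, h2⟩
        exact ⟨by rw [map_smul, h1], by rw [map_smul, h2]⟩ }
  have cube : ∀ (c : Module.End (ZMod 2) M), (∀ x, c (c (c x)) = x) → ∀ y, c (c y) = y → c y = y := by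
    intro c hc y hy
    calc c y = c (c (c y)) := by rw [hy]
      _ = y := hc y
  rcases hi N
    (by
      rintro m ⟨h1, h2⟩
      exact ⟨by rw [h1, h1], by rw [← h.ab', h2]⟩)
    (by
      rintro m ⟨h1, h2⟩
      exact ⟨by rw [h.ab', h1], by rw [h2, h2]⟩)
    (by
      rintro m ⟨h1, h2⟩
      refine ⟨cube a h.a3' _ (by rw [← h.rb', h2]), by rw [← h.ra', h1]⟩)
    (by
      rintro m ⟨h1, h2⟩
      refine ⟨by rw [← h.sa', h1], cube b h.b3' _ (by rw [← h.sb', h2])⟩) with h0 | h0
  · intro m h1 h2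
    have : m ∈ N := ⟨h1, h2⟩
    rw [h0] at this
    exact (Submodule.mem_bot _).mp this
  · exfalso
    apply hne
    ext m
    have : m ∈ N := by rw [h0]; exact Submodule.mem_top
    exact this.1

end Cfsg.Agent.Lib.H68NDH1
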