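import Mathlib
import Cfsg.Agent.Lib.Helper68NDDefs

set_option autoImplicit false

namespace Cfsg.Agent.Lib.H68NDInv

open Cfsg.Agent.Lib.Helper68NDDefs

variable {M : Type*} [AddCommGroup M] [Module (ZMod 2) M]


/-- PIECE Inv (45m).  Let `N` be stable under `ρ a, ρ b, ρ r, ρ s`.  `T := {g | ∀ m, m ∈ N ↔ ρ g m ∈ N}` is a subgroup of `S` (or use `{g | (∀ m ∈ N, ρ g m ∈ N) ∧ ∀ m ∈ N, ρ g⁻¹ m ∈ N}`).  It contains `a, b, r, s`: the inverse of a generator `g` is a power of `g`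
(`a⁻¹ = a ^ 2`, `r⁻¹ = r ^ 3`, `s⁻¹ = s`), so `N` is stable under `ρ g⁻¹` as well.  So `closure {a, b} ≤ T`, `X ≤ T` (`hD.elts`: `x = r ^ i` or `s * r ^ i`), `⊤ = A ⊔ X ≤ T`.  Apply `hirr`. -/
theorem irrE {S : Type*} [Group S] (ρ : Representation (ZMod 2) S M)
    (hirr : ∀ N : Submodule (ZMod 2) M, (∀ s : S, ∀ m ∈ N, ρ s m ∈ N) → N = ⊥ ∨ N = ⊤)
    (A X : Subgroup S) (hAX : A ⊔ X = ⊤) {a b r s : S} (h : Rel a b r s) (hD : D8 X r s)
    (hA : A ≤ Subgroup.closure {a, b}) : IrrE (ρ a) (ρ b) (ρ r) (ρ s) := by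
  intro N ha hb hr hs
  apply hirr N
  let T : Subgroup S :=
    { carrier := {g | (∀ m ∈ N, ρ g m ∈ N) ∧ ∀ m ∈ N, ρ g⁻¹ m ∈ N}
      one_mem' := by
        refine ⟨fun m hm => ?_, fun m hm => ?_⟩
        · rw [map_one]; exact hm
        · rw [inv_one, map_one]; exact hm
      mul_mem' := by
        rintro x y ⟨h1, h2⟩ ⟨h3, h4⟩
        refine ⟨fun m hm => ?_, fun m hm => ?_⟩
        · rw [map_mul, Module.End.mul_apply]
          exact h1 _ (h3 _ hm)
        · rw [mul_inv_rev, map_mul, Module.End.mul_apply]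
          exact h4 _ (h2 _ hm)
      inv_mem' := by
        rintro x ⟨h1, h2⟩
        exact ⟨h2, by rwa [inv_inv]⟩ }
  have ainv : a⁻¹ = a * a := by
    have h1 := h.a3
    rw [pow_succ, pow_two] at h1
    exact (eq_inv_of_mul_eq_one_left h1).symm
  have binv : b⁻¹ = b * b := by
    have h1 := h.b3
    rw [pow_succ, pow_two] at h1
    exact (eq_inv_of_mul_eq_one_left h1).symm
  have rinv : r⁻¹ = r * r * r := by
    have h1 := h.r4
    rw [pow_succ, pow_succ, pow_two] at h1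
    exact (eq_inv_of_mul_eq_one_left h1).symm
  have sinv : s⁻¹ = s := by
    have h1 := h.s2
    rw [pow_two] at h1
    exact (eq_inv_of_mul_eq_one_left h1).symm
  have haT : a ∈ T := ⟨ha, fun m hm => by
    rw [ainv, map_mul, Module.End.mul_apply]
    exact ha _ (ha _ hm)⟩
  have hbT : b ∈ T := ⟨hb, fun m hm => by
    rw [binv, map_mul, Module.End.mul_apply]
    exact hb _ (hb _ hm)⟩
  have hrT : r ∈ T := ⟨hr, fun m hm => by
    rw [rinv, map_mul, map_mul, Module.End.mul_apply, Module.End.mul_apply]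
    exact hr _ (hr _ (hr _ hm))⟩
  have hsT : s ∈ T := ⟨hs, fun m hm => by
    rw [sinv]
    exact hs _ hm⟩
  have hAT : A ≤ T := hA.trans ((Subgroup.closure_le T).mpr (by
    intro x hx
    simp only [Set.mem_insert_iff, Set.mem_singleton_iff] at hx
    rcases hx with rfl | rfl
    · exact haT
    · exact hbT))
  have hXT : X ≤ T := by
    intro x hx
    obtain ⟨i, rfl | rfl⟩ := hD.elts x hx
    · exact T.pow_mem hrT i
    · exact T.mul_mem hsT (T.pow_mem hrT i)
  have htop : T = ⊤ := by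
    rw [eq_top_iff, ← hAX]
    exact sup_le hAT hXT
  intro g m hm
  have hg : g ∈ T := htop ▸ Subgroup.mem_top g
  exact hg.1 m hm

end Cfsg.Agent.Lib.H68NDInv
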