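import Mathlib
import Cfsg.Agent.Lib.Helper68NDDefs

set_option autoImplicit false

namespace Cfsg.Agent.Lib.H68NDIrr2

open Cfsg.Agent.Lib.Helper68NDDefs

variable {M : Type*} [AddCommGroup M] [Module (ZMod 2) M]


/-- PIECE Irr2 (40m).  A submodule `N` stable under `a' = a b b`, `b' = a b`, `r`, `s' = s r` is stable under `a = (a' b')²` (`a' b' = a² b³ = a²`, `a⁴ = a`), `b = (b' a' a')²` (`b' a' a' = a³ b⁵ = b²`, `b⁴ = b`), `s = s' r r r` (`r⁴ = 1`).
Prove the three operator identities from `RelE` (`a`, `b` commute), then stability of `N` under products. -/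
theorem irr2 {a b r s : Module.End (ZMod 2) M} (h : RelE a b r s) (hi : IrrE a b r s) :
    IrrE (a * b * b) (a * b) r (s * r) := by
  intro N ha' hb' hr hs'
  have ea : ∀ m, a m = (a * b * b) ((a * b) ((a * b * b) ((a * b) m))) := by
    intro m
    simp only [Module.End.mul_apply, h.ab', h.b3', h.a3']
  have eb : ∀ m, b m = (a * b) ((a * b * b) ((a * b * b) ((a * b) ((a * b * b) ((a * b * b) m))))) := by
    intro m
    simp only [Module.End.mul_apply, h.ab', h.b3', h.a3']
  have es : ∀ m, s m = (s * r) (r (r (r m))) := by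
    intro m
    rw [Module.End.mul_apply, h.r4']
  apply hi N
  · intro m hm
    rw [ea]
    exact ha' _ (hb' _ (ha' _ (hb' _ hm)))
  · intro m hm
    rw [eb]
    exact hb' _ (ha' _ (ha' _ (hb' _ (ha' _ (ha' _ hm)))))
  · exact hr
  · intro m hm
    rw [es]
    exact hs' _ (hr _ (hr _ (hr _ hm)))

end Cfsg.Agent.Lib.H68NDIrr2
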