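import Mathlib
import Cfsg.Agent.Lib.Helper68NDDefs

set_option autoImplicit false

namespace Cfsg.Agent.Lib.H68NDRel2

open Cfsg.Agent.Lib.Helper68NDDefs

/-- PIECE Rel2 (45m, pure).  The second system of generators `a' = a b⁻¹`, `b' = a b`, `r`, `s' = s r`.  `a'^3 = a^3 b^-3 = 1` (commuting: `Commute.mul_pow`), same for `b'`; `s'^2 = s r s r = (s r s⁻¹) r = 1` (`s⁻¹ = s` from `s ^ 2 = 1`);
`s' r s'⁻¹ = s r s⁻¹ = r⁻¹`; `s' a s'⁻¹ = s b s⁻¹ = b⁻¹`, `s' b s'⁻¹ = s a⁻¹ s⁻¹ = a⁻¹`, so `s' a' s'⁻¹ = b⁻¹ a = a'`, `s' b' s'⁻¹ = b⁻¹ a⁻¹ = b'⁻¹`; `r a' r⁻¹ = b a = b'`, `r b' r⁻¹ = b a⁻¹ = a'⁻¹`.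
(Conjugation is multiplicative: write `g (x y) g⁻¹ = (g x g⁻¹)(g y g⁻¹)`, `g x⁻¹ g⁻¹ = (g x g⁻¹)⁻¹` by `group`, then rewrite with the relations.) -/
theorem rel2 {S : Type*} [Group S] {a b r s : S} (h : Rel a b r s) :
    Rel (a * b⁻¹) (a * b) r (s * r) := by
  have hab' : a * b⁻¹ = b⁻¹ * a := by
    calc a * b⁻¹ = b⁻¹ * (b * a) * b⁻¹ := by group
      _ = b⁻¹ * (a * b) * b⁻¹ := by rw [h.ab]
      _ = b⁻¹ * a := by group
  have ss : s * s = 1 := by rw [← pow_two, h.s2]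
  have e : s * r = r⁻¹ * s := by
    rw [← h.srs]
    group
  refine ⟨?_, ?_, ?_, ?_, h.r4, ?_, ?_, ?_, ?_, ?_⟩
  · have hc : Commute a b⁻¹ := hab'
    rw [hc.mul_pow, h.a3, inv_pow, h.b3]
    simp
  · have hc : Commute a b := h.ab
    rw [hc.mul_pow, h.a3, h.b3, one_mul]
  · calc a * b⁻¹ * (a * b) = a * (b⁻¹ * a) * b := by group
      _ = a * (a * b⁻¹) * b := by rw [hab']
      _ = a * (a * b) * b⁻¹ := by group
      _ = a * (b * a) * b⁻¹ := by rw [h.ab]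
      _ = a * b * (a * b⁻¹) := by group
  · rw [pow_two]
    calc s * r * (s * r) = (s * r) * s * r := by group
      _ = r⁻¹ * s * s * r := by rw [e]
      _ = r⁻¹ * (s * s) * r := by group
      _ = 1 := by rw [ss]; group
  · calc s * r * r * (s * r)⁻¹ = s * r * s⁻¹ := by group
      _ = r⁻¹ := h.srs
  · calc s * r * (a * b⁻¹) * (s * r)⁻¹
        = s * ((r * a * r⁻¹) * (r * b * r⁻¹)⁻¹) * s⁻¹ := by group
      _ = s * (b * a) * s⁻¹ := by rw [h.ra, h.rb, inv_inv]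
      _ = (s * b * s⁻¹) * (s * a * s⁻¹) := by group
      _ = b⁻¹ * a := by rw [h.sb, h.sa]
      _ = a * b⁻¹ := hab'.symm
  · calc s * r * (a * b) * (s * r)⁻¹
        = s * ((r * a * r⁻¹) * (r * b * r⁻¹)) * s⁻¹ := by group
      _ = s * (b * a⁻¹) * s⁻¹ := by rw [h.ra, h.rb]
      _ = (s * b * s⁻¹) * (s * a * s⁻¹)⁻¹ := by group
      _ = b⁻¹ * a⁻¹ := by rw [h.sb, h.sa]
      _ = (a * b)⁻¹ := by group
  · calc r * (a * b⁻¹) * r⁻¹ = (r * a * r⁻¹) * (r * b * r⁻¹)⁻¹ := by group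
      _ = b * a := by rw [h.ra, h.rb, inv_inv]
      _ = a * b := h.ab.symm
  · calc r * (a * b) * r⁻¹ = (r * a * r⁻¹) * (r * b * r⁻¹) := by group
      _ = b * a⁻¹ := by rw [h.ra, h.rb]
      _ = (a * b⁻¹)⁻¹ := by group

end Cfsg.Agent.Lib.H68NDRel2
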