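import Mathlib
import Cfsg.Agent.Lib.Helper68NDDefs

set_option autoImplicit false

namespace Cfsg.Agent.Lib.H68NDRelE

open Cfsg.Agent.Lib.Helper68NDDefs

variable {M : Type*} [AddCommGroup M] [Module (ZMod 2) M]


/-- PIECE RelE (30m).  Apply `ρ` (`map_mul`, `map_one`, `map_pow`): first turn each relation of `Rel` into an inverse-free identity in `S`, e.g. `s * r = r * r * r * s` (from `s r s⁻¹ = r⁻¹ = r ^ 3`), `s * b = b * b * s` (`b⁻¹ = b * b`), `r * b = a * a * r`, `r * a = b * r`, `s * a = a * s`. -/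
theorem relE {S : Type*} [Group S] (ρ : Representation (ZMod 2) S M) {a b r s : S}
    (h : Rel a b r s) : RelE (ρ a) (ρ b) (ρ r) (ρ s) := by
  have ainv : a⁻¹ = a * a := by
    have h1 := h.a3
    rw [pow_succ, pow_two] at h1
    exact (eq_inv_of_mul_eq_one_left h1).symm
  have binv : b⁻¹ = b * b := by
    have h1 := h.b3
    rw [pow_succ, pow_two] at h1
    exact (eq_inv_of_mul_eq_one_left h1).symm
  have rinv : r⁻¹ = r * r * r := by
    have h1 := h.r4
    rw [pow_succ, pow_succ, pow_two] at h1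
    exact (eq_inv_of_mul_eq_one_left h1).symm
  refine ⟨?_, ?_, ?_, ?_, ?_, ?_, ?_, ?_, ?_, ?_⟩
  · rw [← map_mul, ← map_mul, ← map_one ρ, ← h.a3, pow_succ, pow_two]
  · rw [← map_mul, ← map_mul, ← map_one ρ, ← h.b3, pow_succ, pow_two]
  · rw [← map_mul, ← map_mul, h.ab]
  · rw [← map_mul, ← map_one ρ, ← h.s2, pow_two]
  · rw [← map_mul, ← map_mul, ← map_mul, ← map_one ρ, ← h.r4, pow_succ, pow_succ, pow_two]
  · rw [← map_mul, ← map_mul, ← map_mul, ← map_mul, ← rinv, ← h.srs]
    congr 1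
    group
  · rw [← map_mul, ← map_mul]
    congr 1
    nth_rewrite 2 [← h.sa]
    group
  · rw [← map_mul, ← map_mul, ← map_mul, ← binv, ← h.sb]
    congr 1
    group
  · rw [← map_mul, ← map_mul]
    congr 1
    rw [← h.ra]
    group
  · rw [← map_mul, ← map_mul, ← map_mul, ← ainv, ← h.rb]
    congr 1
    group

end Cfsg.Agent.Lib.H68NDRelE
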