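import Mathlib
import Cfsg.Agent.Lib.Helper69G4Defs
import Cfsg.Agent.S0991

set_option autoImplicit false
set_option linter.unusedVariables false
set_option linter.unusedSectionVars false

namespace Cfsg.Agent.Lib.H69G4AltIdx

open Cfsg Cfsg.Agent.Lib.Helper69G4Defs Equiv Equiv.Perm MulAction

/-- A proper subgroup of `A_n` has index at least `n`. -/
theorem alt_index {n : ℕ} (hn : 5 ≤ n) (L : Subgroup (Perm (Fin n)))
    (hL : L ≤ alternatingGroup (Fin n)) :
    L = alternatingGroup (Fin n) ∨ n * Nat.card L ≤ Nat.card (alternatingGroup (Fin n)) := by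
  by_cases htop : L.subgroupOf (alternatingGroup (Fin n)) = ⊤
  · left
    exact le_antisymm hL (Subgroup.subgroupOf_eq_top.1 htop)
  right
  have hsimple : IsSimpleGroup (alternatingGroup (Fin n)) :=
    alternatingGroup.isSimpleGroup (by rw [Nat.card_eq_fintype_card, Fintype.card_fin]; exact hn)
  have hnt : Nontrivial (Fin n) := Fin.nontrivial_iff_two_le.2 (by omega)
  have hcardA : 2 * Nat.card (alternatingGroup (Fin n)) = n.factorial := by
    rw [two_mul_nat_card_alternatingGroup, Nat.card_eq_fintype_card, Fintype.card_perm,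
      Fintype.card_fin]
  have hnc : ¬ IsMulCommutative (alternatingGroup (Fin n)) := by
    intro hc
    have h1 : Group.IsSolvable (alternatingGroup (Fin n)) :=
      Group.isSolvable_of_comm (fun a b => hc.is_comm.comm a b)
    have h2 : Group.IsSolvable (Perm (Fin n) ⧸ alternatingGroup (Fin n)) := by
      have h3 : Nat.card (Perm (Fin n) ⧸ alternatingGroup (Fin n)) = 2 :=
        alternatingGroup.index_eq_two
      have := Fact.mk Nat.prime_two
      have h4 : IsCyclic (Perm (Fin n) ⧸ alternatingGroup (Fin n)) := isCyclic_of_prime_card h3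
      exact Group.isSolvable_of_comm (fun a b => (IsCyclic.isMulCommutative
        (α := Perm (Fin n) ⧸ alternatingGroup (Fin n))).is_comm.comm a b)
    have h5 : Group.IsSolvable (Perm (Fin n)) :=
      (Group.isSolvable_iff_subgroup_quotient (alternatingGroup (Fin n))).2 ⟨h1, h2⟩
    exact Equiv.Perm.not_isSolvable (Fin n) (by simpa using hn) h5
  set d := (L.subgroupOf (alternatingGroup (Fin n))).index with hd
  obtain ⟨f, hf⟩ : ∃ f : ↥(alternatingGroup (Fin n)) →* ↥(alternatingGroup (Fin d)),
      Function.Injective f := Cfsg.Agent.S0991.result hnc _ htop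
  have hd0 : d ≠ 0 := Subgroup.index_ne_zero_of_finite
  have hd1 : d ≠ 1 := fun h => htop (Subgroup.index_eq_one.1 h)
  have hntd : Nontrivial (Fin d) := Fin.nontrivial_iff_two_le.2 (by omega)
  have hcardD : 2 * Nat.card (alternatingGroup (Fin d)) = d.factorial := by
    rw [two_mul_nat_card_alternatingGroup, Nat.card_eq_fintype_card, Fintype.card_perm,
      Fintype.card_fin]
  have hle : Nat.card (alternatingGroup (Fin n)) ≤ Nat.card (alternatingGroup (Fin d)) :=
    Nat.card_le_card_of_injective f hf
  have hfac : n.factorial ≤ d.factorial := by omega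
  have hnd : n ≤ d := by
    by_contra h
    push Not at h
    have := (Nat.factorial_lt (Nat.pos_of_ne_zero hd0)).2 h
    omega
  have hmul := Subgroup.card_mul_index (L.subgroupOf (alternatingGroup (Fin n)))
  rw [← hd, Nat.card_congr (Subgroup.subgroupOfEquivOfLe hL).toEquiv] at hmul
  rw [← hmul, mul_comm]
  exact Nat.mul_le_mul_left _ hnd

end Cfsg.Agent.Lib.H69G4AltIdx
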