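import Mathlib
import Cfsg.Agent.Lib.Helper69G4Defs

set_option autoImplicit false
set_option linter.unusedVariables false
set_option linter.unusedSectionVars false

namespace Cfsg.Agent.Lib.H69G4AltTop

open Cfsg Cfsg.Agent.Lib.Helper69G4Defs Equiv Equiv.Perm MulAction

/-- `A_n` has index 2 (`alternatingGroup.index_eq_two` / `two_mul_nat_card_alternatingGroup`), so there is nothing strictly between. -/
theorem eq_of_alt_le {n : ℕ} (hn : 2 ≤ n) (K : Subgroup (Perm (Fin n)))
    (h : alternatingGroup (Fin n) ≤ K) : K = alternatingGroup (Fin n) ∨ K = ⊤ := by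
  have : Nontrivial (Fin n) := Fin.nontrivial_iff_two_le.2 hn
  have h2 : (alternatingGroup (Fin n)).index = 2 := alternatingGroup.index_eq_two
  have h3 := Subgroup.relIndex_mul_index h
  rw [h2] at h3
  have h4 : K.index ∣ 2 := Dvd.intro_left _ h3
  rcases (Nat.dvd_prime Nat.prime_two).1 h4 with h5 | h5
  · exact Or.inr (Subgroup.index_eq_one.1 h5)
  · left
    rw [h5] at h3
    have h6 : (alternatingGroup (Fin n)).relIndex K = 1 := by omega
    exact le_antisymm (Subgroup.relIndex_eq_one.1 h6) h

/-- restrict `sign` to `K`: the kernel is `K ⊓ A_n` and the image has order 1 or 2. -/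
theorem card_inf_alt {n : ℕ} (K : Subgroup (Perm (Fin n))) :
    Nat.card K = Nat.card ↥(K ⊓ alternatingGroup (Fin n)) ∨
      Nat.card K = 2 * Nat.card ↥(K ⊓ alternatingGroup (Fin n)) := by
  have h0 : Nat.card ((K ⊓ alternatingGroup (Fin n)).subgroupOf K) =
      Nat.card ↥(K ⊓ alternatingGroup (Fin n)) :=
    Nat.card_congr (Subgroup.subgroupOfEquivOfLe inf_le_left).toEquiv
  have h1 : Nat.card ↥(K ⊓ alternatingGroup (Fin n)) * (K ⊓ alternatingGroup (Fin n)).relIndex K
      = Nat.card K := by
    rw [← h0]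
    exact Subgroup.card_mul_index _
  rw [Subgroup.inf_relIndex_left] at h1
  have h2 : (alternatingGroup (Fin n)).index ∣ 2 := by
    have h3 : (alternatingGroup (Fin n)).index = Nat.card (sign (α := Fin n)).range :=
      Subgroup.index_ker _
    rw [h3]
    have h4 := Subgroup.card_subgroup_dvd_card (sign (α := Fin n)).range
    have h5 : Nat.card ℤˣ = 2 := by
      rw [Nat.card_eq_fintype_card]
      rfl
    rwa [h5] at h4
  have h3 : (alternatingGroup (Fin n)).relIndex K ∣ 2 :=
    (Subgroup.relIndex_dvd_index_of_normal _ K).trans h2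
  rcases (Nat.dvd_prime Nat.prime_two).1 h3 with h5 | h5
  · left
    rw [h5, mul_one] at h1
    exact h1.symm
  · right
    rw [h5, mul_comm] at h1
    exact h1.symm

theorem normal_inf_alt {n : ℕ} (K : Subgroup (Perm (Fin n))) :
    ((K ⊓ alternatingGroup (Fin n)).subgroupOf K).Normal := by
  rw [Subgroup.inf_subgroupOf_left]
  infer_instance

/-- `Subgroup.subgroupOfEquivOfLe inf_le_left` -/
theorem card_subgroupOf_inf_alt {n : ℕ} (K : Subgroup (Perm (Fin n))) :
    Nat.card ((K ⊓ alternatingGroup (Fin n)).subgroupOf K) =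
      Nat.card ↥(K ⊓ alternatingGroup (Fin n)) :=
  Nat.card_congr (Subgroup.subgroupOfEquivOfLe inf_le_left).toEquiv

end Cfsg.Agent.Lib.H69G4AltTop
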