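import Mathlib
import Cfsg.Agent.Lib.Helper69G4Defs

set_option autoImplicit false
set_option linter.unusedVariables false
set_option linter.unusedSectionVars false

namespace Cfsg.Agent.Lib.H69G4Block

open Cfsg Cfsg.Agent.Lib.Helper69G4Defs Equiv Equiv.Perm MulAction

theorem col0 (h : GL (Fin 4) (ZMod 2))
    (hfix : h • (Pi.single 0 1 : V4) = Pi.single 0 1) (i : Fin 4) :
    (h : Matrix (Fin 4) (Fin 4) (ZMod 2)) i 0 = if i = 0 then 1 else 0 := by
  have h1 := congrFun hfix i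
  rw [Helper69G4Defs.smul_def, Matrix.mulVec_single_one] at h1
  simp only [Matrix.col_apply, Pi.single_apply] at h1
  exact h1

theorem block_mul (a b : Matrix (Fin 4) (Fin 4) (ZMod 2))
    (ha : ∀ i : Fin 3, a i.succ 0 = 0) :
    (a * b).submatrix Fin.succ Fin.succ =
      a.submatrix Fin.succ Fin.succ * b.submatrix Fin.succ Fin.succ := by
  ext i j
  simp only [Matrix.submatrix_apply, Matrix.mul_apply]
  rw [Fin.sum_univ_succ, ha i, zero_mul, zero_add]

/-- Every `h ∈ H` has first column `e_0`. -/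
theorem hom_of_fixed_e0 (H : Subgroup (GL (Fin 4) (ZMod 2)))
    (hfix : ∀ h ∈ H, h • (Pi.single 0 1 : V4) = Pi.single 0 1) :
    ∃ f : H →* GL (Fin 3) (ZMod 2), ∀ h ∈ f.ker, h ^ 2 = 1 := by
  have hc : ∀ h : H, ∀ i : Fin 3, ((h : GL (Fin 4) (ZMod 2)) : Matrix (Fin 4) (Fin 4) (ZMod 2)) i.succ 0 = 0 := by
    intro h i
    rw [col0 _ (hfix h h.2)]
    simp [Fin.succ_ne_zero]
  have hc0 : ∀ h : H, ((h : GL (Fin 4) (ZMod 2)) : Matrix (Fin 4) (Fin 4) (ZMod 2)) 0 0 = 1 := by
    intro h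
    rw [col0 _ (hfix h h.2)]
    simp
  let f0 : H →* Matrix (Fin 3) (Fin 3) (ZMod 2) :=
    { toFun := fun h => ((h : GL (Fin 4) (ZMod 2)) : Matrix (Fin 4) (Fin 4) (ZMod 2)).submatrix Fin.succ Fin.succ
      map_one' := by
        ext i j
        simp [Matrix.one_apply]
      map_mul' := by
        intro a b
        have := block_mul ((a : GL (Fin 4) (ZMod 2)) : Matrix (Fin 4) (Fin 4) (ZMod 2))
          ((b : GL (Fin 4) (ZMod 2)) : Matrix (Fin 4) (Fin 4) (ZMod 2)) (hc a)
        simpa using this }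
  refine ⟨f0.toHomUnits, ?_⟩
  intro h hh
  rw [MonoidHom.mem_ker] at hh
  have h1 : f0 h = 1 := by
    have := congrArg (fun u : GL (Fin 3) (ZMod 2) => (u : Matrix (Fin 3) (Fin 3) (ZMod 2))) hh
    simpa using this
  have h2 : ∀ i j : Fin 3, ((h : GL (Fin 4) (ZMod 2)) : Matrix (Fin 4) (Fin 4) (ZMod 2)) i.succ j.succ
      = if i = j then 1 else 0 := by
    intro i j
    have := congrFun (congrFun h1 i) j
    simpa [f0, Matrix.one_apply] using this
  apply Subtype.ext
  apply Units.ext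
  rw [sq]
  ext i j
  simp only [Subgroup.coe_mul, Units.val_mul, Matrix.mul_apply, Subgroup.coe_one, Units.val_one]
  rw [Fin.sum_univ_succ]
  refine Fin.cases ?_ (fun i' => ?_) i <;> refine Fin.cases ?_ (fun j' => ?_) j
  · simp [hc0, hc]
  · simp only [hc0, h2, one_mul]
    simp only [mul_ite, mul_one, mul_zero, Finset.sum_ite_eq', Finset.mem_univ, if_true]
    rw [Matrix.one_apply_ne (Fin.succ_ne_zero j').symm]
    exact CharTwo.add_self_eq_zero _
  · simp [hc0, hc, Matrix.one_apply_ne (Fin.succ_ne_zero i')]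
  · simp only [hc, h2, zero_mul, zero_add]
    simp [Matrix.one_apply]

end Cfsg.Agent.Lib.H69G4Block
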