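import Mathlib
import Cfsg.Agent.Lib.Helper69G4Defs

set_option autoImplicit false
set_option linter.unusedVariables false
set_option linter.unusedSectionVars false

namespace Cfsg.Agent.Lib.H69G4CardFix

open Cfsg Cfsg.Agent.Lib.Helper69G4Defs Equiv Equiv.Perm MulAction

/-- `IsMultiplyPretransitive.index_of_fixingSubgroup_mul` and `Subgroup.card_mul_index`. -/
theorem card_fix {k m : ℕ} (K : Subgroup (Perm (Fin k))) (h : IsMultiplyPretransitive K (Fin k) m)
    (s : Set (Fin k)) (hs : s.ncard = m) :
    Nat.card K * (k - m).factorial = k.factorial * Nat.card (fixingSubgroup K s) := by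
  have h1 := h.index_of_fixingSubgroup_mul hs
  rw [Nat.card_eq_fintype_card, Fintype.card_fin] at h1
  rw [← h1, ← (fixingSubgroup K s).card_mul_index]
  ring

end Cfsg.Agent.Lib.H69G4CardFix
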