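import Mathlib
import Cfsg.Agent.Lib.Helper69G4Defs

set_option autoImplicit false
set_option linter.unusedVariables false
set_option linter.unusedSectionVars false

namespace Cfsg.Agent.Lib.H69G4Congr

open Cfsg Cfsg.Agent.Lib.Helper69G4Defs Equiv Equiv.Perm MulAction

/-- `CF` is invariant under isomorphism: transport `N` with `Subgroup.comap e.toMonoidHom` (or `map e.symm`);
`IsPGroup.of_equiv`/`Nat.card_congr` for the two conditions; `N = ⊥` from `comap = ⊥` and surjectivity. -/
theorem cf_congr {H H' : Type*} [Group H] [Group H'] (e : H ≃* H') (h : CF H) : CF H' := by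
  constructor
  · intro N hN hp
    have h1 := h.1 (N.map e.symm.toMonoidHom) (hN.map _ e.symm.surjective) (hp.map _)
    exact (Subgroup.map_eq_bot_iff_of_injective N e.symm.injective).1 h1
  · intro N hN hp
    have h1 := h.2 (N.map e.symm.toMonoidHom) (hN.map _ e.symm.surjective)
      (by rw [Subgroup.card_map_of_injective e.symm.injective]; exact hp)
    exact (Subgroup.map_eq_bot_iff_of_injective N e.symm.injective).1 h1

end Cfsg.Agent.Lib.H69G4Congr
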