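import Mathlib
import Cfsg.Agent.Lib.Helper69G4Defs

set_option autoImplicit false
set_option linter.unusedVariables false
set_option linter.unusedSectionVars false

namespace Cfsg.Agent.Lib.H69G4Conj

open Cfsg Cfsg.Agent.Lib.Helper69G4Defs Equiv Equiv.Perm MulAction

/-- transvections -/
theorem exists_tv (u φ : V4) (h : φ ⬝ᵥ u = 0) :
    ∃ g : GL (Fin 4) (ZMod 2), ∀ w : V4, g • w = w + (φ ⬝ᵥ w) • u := by
  have hN : Matrix.vecMulVec u φ * Matrix.vecMulVec u φ = 0 := by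
    rw [Matrix.vecMulVec_mul_vecMulVec, h, zero_smul]
    ext i j
    simp [Matrix.vecMulVec_apply]
  refine ⟨⟨1 + Matrix.vecMulVec u φ, 1 - Matrix.vecMulVec u φ, ?_, ?_⟩, ?_⟩
  · rw [add_mul, mul_sub, mul_sub, hN]
    simp
  · rw [sub_mul, mul_add, mul_add, hN]
    simp
  · intro w
    rw [Helper69G4Defs.smul_def]
    change (1 + Matrix.vecMulVec u φ).mulVec w = _
    rw [Matrix.add_mulVec, Matrix.one_mulVec, Matrix.vecMulVec_mulVec, op_smul_eq_smul]

theorem exists_conj_aux (v0 : V4) (h0 : v0 0 = 1) :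
    ∃ x : GL (Fin 4) (ZMod 2), x • v0 = (Pi.single 0 1 : V4) := by
  obtain ⟨g, hg⟩ := exists_tv ((Pi.single 0 1 : V4) - v0) (Pi.single 0 1) (by
    rw [single_dotProduct]
    simp [h0])
  refine ⟨g, ?_⟩
  rw [hg, single_dotProduct, h0]
  simp

/-- `GL(4,2)` is transitive on nonzero vectors. -/
theorem exists_conj (v0 : V4) (h0 : v0 ≠ 0) :
    ∃ x : GL (Fin 4) (ZMod 2), x • v0 = (Pi.single 0 1 : V4) := by
  have h01 : ∀ x : ZMod 2, x = 0 ∨ x = 1 := by decide
  rcases h01 (v0 0) with h | h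
  · obtain ⟨j, hj⟩ := Function.ne_iff.1 h0
    have hj1 : v0 j = 1 := (h01 _).resolve_left hj
    have hj0 : j ≠ 0 := by
      rintro rfl
      rw [h] at hj1
      exact zero_ne_one hj1
    obtain ⟨g1, hg1⟩ := exists_tv (Pi.single 0 1 : V4) (Pi.single j 1) (by
      rw [single_dotProduct]
      simp [hj0])
    obtain ⟨g2, hg2⟩ := exists_conj_aux (g1 • v0) (by
      rw [hg1, single_dotProduct, hj1]
      simp [h])
    exact ⟨g2 * g1, by rw [mul_smul, hg2]⟩
  · exact exists_conj_aux v0 h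

end Cfsg.Agent.Lib.H69G4Conj
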