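import Mathlib
import Cfsg.Agent.Lib.Helper69G4Defs

set_option autoImplicit false
set_option linter.unusedVariables false
set_option linter.unusedSectionVars false

namespace Cfsg.Agent.Lib.H69G4Cyc5

open Cfsg Cfsg.Agent.Lib.Helper69G4Defs Equiv Equiv.Perm MulAction

/-- `Equiv.Perm.cycleType_prime_order` : `cycleType = replicate (n+1) 5`; `sum_cycleType = support.card ≤ k < 10` gives `n = 0`;
`card_cycleType_eq_one` gives `IsCycle`. -/
theorem isCycle_of_orderOf_five {k : ℕ} (hk : k < 10) (c : Perm (Fin k)) (hc : orderOf c = 5) :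
    c.IsCycle ∧ c.support.card = 5 := by
  have hp : (orderOf c).Prime := by rw [hc]; norm_num
  obtain ⟨n, hn⟩ := Equiv.Perm.cycleType_prime_order hp
  rw [hc] at hn
  have h1 : c.support.card = (n + 1) * 5 := by
    rw [← Equiv.Perm.sum_cycleType, hn, Multiset.sum_replicate, smul_eq_mul]
  have h2 : c.support.card ≤ k := by
    have := Finset.card_le_univ c.support
    rwa [Fintype.card_fin] at this
  have h3 : n = 0 := by omega
  subst h3
  refine ⟨?_, by rw [h1]⟩
  rw [← Equiv.Perm.card_cycleType_eq_one, hn]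
  simp

end Cfsg.Agent.Lib.H69G4Cyc5
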