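import Mathlib
import Cfsg.Agent.Lib.Helper69G4Defs
import Cfsg.Agent.Lib.H69G4Conj
import Cfsg.Agent.Lib.H69G4Block

set_option autoImplicit false
set_option linter.unusedVariables false
set_option linter.unusedSectionVars false

namespace Cfsg.Agent.Lib.H69G4Vec

open Cfsg Cfsg.Agent.Lib.Helper69G4Defs Equiv Equiv.Perm MulAction

/-- transport of the conclusion along an injective endomorphism of the ambient group -/
theorem transport (H : Subgroup (GL (Fin 4) (ZMod 2)))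
    (τ : GL (Fin 4) (ZMod 2) →* GL (Fin 4) (ZMod 2)) (hτ : Function.Injective τ)
    (h : ∃ f : (H.map τ) →* GL (Fin 3) (ZMod 2), ∀ h ∈ f.ker, h ^ 2 = 1) :
    ∃ f : H →* GL (Fin 3) (ZMod 2), ∀ h ∈ f.ker, h ^ 2 = 1 := by
  obtain ⟨f, hf⟩ := h
  let e : H ≃* H.map τ := H.equivMapOfInjective τ hτ
  refine ⟨f.comp e.toMonoidHom, ?_⟩
  intro h hh
  have h1 : e h ∈ f.ker := by
    rw [MonoidHom.mem_ker] at hh ⊢
    exact hh
  have h2 := hf _ h1
  apply e.injective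
  rw [map_pow, h2, map_one]

theorem hom_of_fixed (H : Subgroup (GL (Fin 4) (ZMod 2))) (v0 : V4) (h0 : v0 ≠ 0)
    (hfix : ∀ h ∈ H, h • v0 = v0) :
    ∃ f : H →* GL (Fin 3) (ZMod 2), ∀ h ∈ f.ker, h ^ 2 = 1 := by
  obtain ⟨x, hx⟩ := H69G4Conj.exists_conj v0 h0
  apply transport H (MulAut.conj x).toMonoidHom (MulAut.conj x).injective
  apply H69G4Block.hom_of_fixed_e0
  rintro _ ⟨h, hh, rfl⟩
  have : (MulAut.conj x).toMonoidHom h = x * h * x⁻¹ := rfl
  rw [this, ← hx, mul_smul, mul_smul, inv_smul_smul, hfix h hh]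

end Cfsg.Agent.Lib.H69G4Vec
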