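import Mathlib
import Cfsg.Agent.Lib.Helper69G4Defs
import Cfsg.Agent.Lib.H69G4Vec

set_option autoImplicit false
set_option linter.unusedVariables false
set_option linter.unusedSectionVars false

namespace Cfsg.Agent.Lib.H69G4Dual

open Cfsg Cfsg.Agent.Lib.Helper69G4Defs Equiv Equiv.Perm MulAction

/-- the transpose of an invertible matrix -/
def tr (g : GL (Fin 4) (ZMod 2)) : GL (Fin 4) (ZMod 2) where
  val := (g : Matrix (Fin 4) (Fin 4) (ZMod 2)).transpose
  inv := ((g⁻¹ : GL (Fin 4) (ZMod 2)) : Matrix (Fin 4) (Fin 4) (ZMod 2)).transpose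
  val_inv := by
    rw [← Matrix.transpose_mul, ← Units.val_mul, inv_mul_cancel, Units.val_one, Matrix.transpose_one]
  inv_val := by
    rw [← Matrix.transpose_mul, ← Units.val_mul, mul_inv_cancel, Units.val_one, Matrix.transpose_one]

theorem tr_mul (a b : GL (Fin 4) (ZMod 2)) : tr (a * b) = tr b * tr a := by
  apply Units.ext
  change ((a * b : GL (Fin 4) (ZMod 2)) : Matrix (Fin 4) (Fin 4) (ZMod 2)).transpose = _
  rw [Units.val_mul, Matrix.transpose_mul]
  rfl

theorem tr_one : tr 1 = 1 := by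
  apply Units.ext
  change ((1 : GL (Fin 4) (ZMod 2)) : Matrix (Fin 4) (Fin 4) (ZMod 2)).transpose = _
  rw [Units.val_one, Matrix.transpose_one]

theorem tr_injective : Function.Injective tr := by
  intro a b h
  apply Units.ext
  have := congrArg (fun u : GL (Fin 4) (ZMod 2) => (u : Matrix (Fin 4) (Fin 4) (ZMod 2))) h
  exact Matrix.transpose_injective this

/-- transpose inverse -/
def tau : GL (Fin 4) (ZMod 2) →* GL (Fin 4) (ZMod 2) where
  toFun g := (tr g)⁻¹
  map_one' := by rw [tr_one, inv_one]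
  map_mul' a b := by rw [tr_mul, mul_inv_rev]

theorem tau_injective : Function.Injective tau := by
  intro a b h
  exact tr_injective (inv_injective h)

theorem hom_of_fixed_covec (H : Subgroup (GL (Fin 4) (ZMod 2))) (φ0 : V4) (h0 : φ0 ≠ 0)
    (hfix : ∀ h ∈ H, ∀ v : V4, φ0 ⬝ᵥ (h • v) = φ0 ⬝ᵥ v) :
    ∃ f : H →* GL (Fin 3) (ZMod 2), ∀ h ∈ f.ker, h ^ 2 = 1 := by
  apply H69G4Vec.transport H tau tau_injective
  apply H69G4Vec.hom_of_fixed _ φ0 h0
  rintro _ ⟨h, hh, rfl⟩
  change (tr h)⁻¹ • φ0 = φ0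
  rw [inv_smul_eq_iff]
  symm
  rw [Helper69G4Defs.smul_def]
  change (h : Matrix (Fin 4) (Fin 4) (ZMod 2)).transpose.mulVec φ0 = φ0
  rw [Matrix.mulVec_transpose]
  ext j
  have := hfix h hh (Pi.single j 1)
  rw [Helper69G4Defs.smul_def, Matrix.dotProduct_mulVec] at this
  simpa using this

end Cfsg.Agent.Lib.H69G4Dual
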