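import Mathlib
import Cfsg.Agent.Lib.Helper69G4Defs

set_option autoImplicit false
set_option linter.unusedVariables false
set_option linter.unusedSectionVars false

namespace Cfsg.Agent.Lib.H69G4Eight

open Cfsg Cfsg.Agent.Lib.Helper69G4Defs Equiv Equiv.Perm MulAction

set_option maxRecDepth 100000 in
private theorem card_one : ∀ φ : Fin 4 → ZMod 2, φ ≠ 0 →
    (Finset.univ.filter (fun v : Fin 4 → ZMod 2 => φ ⬝ᵥ v = 1)).card = 8 := by decide

private theorem zmod2 : ∀ x : ZMod 2, x = 0 ∨ x = 1 := by decide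

/-- `O` = orbit of `v0` under `H`, 8 elements.  `O \ {v0}` has 7 elements, is `g`-invariant without fixed point, so it is one
`zpowers g`-orbit `{g^i • w | i < 7}` (the `g^i • w` are pairwise distinct since the stabiliser of `w` in the group of prime order 7 is trivial).
`s := ∑ v ∈ O, v = v0 + ∑ i < 7, g^i • w = (1 + φ0 ⬝ᵥ w) • v0` is fixed by `H` (`H` permutes `O`).
If `φ0 ⬝ᵥ w = 0` then `s = v0` is fixed by `H`, so `card O = 1`: contradiction.  So `φ0 ⬝ᵥ w = 1`, and `φ0 ⬝ᵥ v = 1` for all `v ∈ O`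
(`hinv`, `h1`).  The set `{v | φ0 ⬝ᵥ v = 1}` has exactly 8 elements (`φ0 ≠ 0`; e.g. translation by `v0` swaps it with its complement), so it equals `O`
and is `H`-invariant: `φ0 ⬝ᵥ (h • v) = 1 ↔ φ0 ⬝ᵥ v = 1`; values are in `ZMod 2`. -/
theorem covec_fixed (H : Subgroup (GL (Fin 4) (ZMod 2))) (g : GL (Fin 4) (ZMod 2)) (hgH : g ∈ H)
    (hg : orderOf g = 7) (v0 : V4) (h0 : v0 ≠ 0) (hfix : g • v0 = v0)
    (huniq : ∀ v : V4, g • v = v → v = 0 ∨ v = v0) (φ0 : V4) (h1 : φ0 ⬝ᵥ v0 = 1)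
    (hinv : ∀ v : V4, φ0 ⬝ᵥ (g • v) = φ0 ⬝ᵥ v)
    (hN : ∀ v : V4, ∑ i ∈ Finset.range 7, (g ^ i) • v = (φ0 ⬝ᵥ v) • v0)
    (h8 : Nat.card (orbit H v0) = 8) :
    ∀ h ∈ H, ∀ v : V4, φ0 ⬝ᵥ (h • v) = φ0 ⬝ᵥ v := by
  classical
  have hsum : ∀ (x : GL (Fin 4) (ZMod 2)) (s : Finset V4), x • (∑ v ∈ s, v) = ∑ v ∈ s, x • v := by
    intro x s
    simp only [Helper69G4Defs.smul_def]
    exact Matrix.mulVec_sum _ _ _
  have hzero : ∀ x : GL (Fin 4) (ZMod 2), x • (0 : V4) = 0 := by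
    intro x
    rw [Helper69G4Defs.smul_def, Matrix.mulVec_zero]
  obtain ⟨O, hO⟩ : ∃ O : Finset V4, O = (orbit H v0).toFinset := ⟨_, rfl⟩
  have hmemO : ∀ v, v ∈ O ↔ v ∈ orbit H v0 := fun v => by rw [hO]; exact Set.mem_toFinset
  have hOcard : O.card = 8 := by
    rw [← h8, Nat.card_eq_fintype_card, hO, Set.toFinset_card]
  have hv0O : v0 ∈ O := (hmemO _).2 (mem_orbit_self v0)
  have hfwd : ∀ h ∈ H, ∀ v ∈ O, h • v ∈ O := by
    intro h hh v hv
    rw [hmemO] at hv ⊢
    obtain ⟨k, rfl⟩ := hv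
    refine ⟨⟨h, hh⟩ * k, ?_⟩
    simp only
    rw [mul_smul, Subgroup.mk_smul]
  have h0O : (0 : V4) ∉ O := by
    intro h
    rw [hmemO] at h
    obtain ⟨k, hk⟩ := h
    apply h0
    have : (k : GL (Fin 4) (ZMod 2)) • v0 = 0 := hk
    calc v0 = (k : GL (Fin 4) (ZMod 2))⁻¹ • ((k : GL (Fin 4) (ZMod 2)) • v0) := by
          rw [inv_smul_smul]
      _ = 0 := by rw [this, hzero]
  obtain ⟨w, hwO, hwv⟩ := Finset.exists_mem_ne (by rw [hOcard]; norm_num : 1 < O.card) v0
  have hw0 : w ≠ 0 := fun h => h0O (h ▸ hwO)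
  have hgw : g • w ≠ w := by
    intro h
    rcases huniq w h with h | h
    · exact hw0 h
    · exact hwv h
  have hgpow : ∀ i : ℕ, g ^ i ∈ H := fun i => H.pow_mem hgH i
  have hgv0 : ∀ i : ℕ, g ^ i • v0 = v0 := by
    intro i
    have : g ^ i ∈ stabilizer (GL (Fin 4) (ZMod 2)) v0 :=
      Subgroup.pow_mem _ (mem_stabilizer_iff.2 hfix) i
    exact mem_stabilizer_iff.1 this
  -- a power of `g` fixing `w` is trivial
  have hfree : ∀ n : ℕ, 0 < n → n < 7 → g ^ n • w ≠ w := by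
    intro n hn0 hn7 hfixn
    have hcop : Nat.Coprime n 7 := by
      rw [Nat.coprime_comm]
      exact (Nat.Prime.coprime_iff_not_dvd (by norm_num)).2 (fun hd => by
        have := Nat.le_of_dvd hn0 hd
        omega)
    obtain ⟨m, -, hm⟩ := Nat.exists_mul_mod_eq_one_of_coprime hcop (by norm_num)
    have h2 : (g ^ n) ^ m ∈ stabilizer (GL (Fin 4) (ZMod 2)) w :=
      Subgroup.pow_mem _ (mem_stabilizer_iff.2 hfixn) m
    rw [← pow_mul, ← pow_mod_orderOf, hg, hm, pow_one] at h2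
    exact hgw (mem_stabilizer_iff.1 h2)
  have hinj : Set.InjOn (fun i : ℕ => g ^ i • w) (Finset.range 7 : Set ℕ) := by
    have key : ∀ i j : ℕ, i < j → j < 7 → g ^ i • w ≠ g ^ j • w := by
      intro i j hij hj h
      have e : g ^ j = g ^ i * g ^ (j - i) := by rw [← pow_add]; congr 1; omega
      rw [e, mul_smul] at h
      exact hfree (j - i) (by omega) (by omega) (smul_left_cancel _ h).symm
    intro i hi j hj h
    simp only [Finset.coe_range, Set.mem_Iio] at hi hj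
    rcases lt_trichotomy i j with hlt | heq | hgt
    · exact (key i j hlt hj h).elim
    · exact heq
    · exact (key j i hgt hi h.symm).elim
  have hI : (Finset.range 7).image (fun i : ℕ => g ^ i • w) = O.erase v0 := by
    apply Finset.eq_of_subset_of_card_le
    · intro x hx
      obtain ⟨i, -, rfl⟩ := Finset.mem_image.1 hx
      rw [Finset.mem_erase]
      refine ⟨fun h => hwv ?_, hfwd _ (hgpow i) w hwO⟩
      rw [← hgv0 i] at h
      exact smul_left_cancel _ h
    · rw [Finset.card_image_of_injOn hinj, Finset.card_erase_of_mem hv0O, hOcard]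
      simp
  have hφpow : ∀ i : ℕ, φ0 ⬝ᵥ (g ^ i • w) = φ0 ⬝ᵥ w := by
    intro i
    induction i with
    | zero => simp
    | succ n ih => rw [pow_succ', mul_smul, hinv, ih]
  have hs : ∑ v ∈ O, v = v0 + (φ0 ⬝ᵥ w) • v0 := by
    rw [← Finset.add_sum_erase O (fun v => v) hv0O, ← hI, Finset.sum_image hinj, hN]
  have hHs : ∀ h ∈ H, h • (∑ v ∈ O, v) = ∑ v ∈ O, v := by
    intro h hh
    have himg : O.image (fun v => h • v) = O :=
      Finset.eq_of_subset_of_card_le (Finset.image_subset_iff.2 (hfwd h hh))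
        (by rw [Finset.card_image_of_injective _ (MulAction.injective h)])
    rw [hsum]
    conv_rhs => rw [← himg]
    rw [Finset.sum_image (fun a _ b _ hab => MulAction.injective h hab)]
  have hw1 : φ0 ⬝ᵥ w = 1 := by
    rcases zmod2 (φ0 ⬝ᵥ w) with h | h
    · exfalso
      rw [h, zero_smul, add_zero] at hs
      have hsub : O ⊆ {v0} := by
        intro v hv
        rw [hmemO] at hv
        obtain ⟨k, rfl⟩ := hv
        rw [Finset.mem_singleton]
        have := hHs k k.2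
        rw [hs] at this
        exact this
      have := Finset.card_le_card hsub
      rw [hOcard, Finset.card_singleton] at this
      omega
    · exact h
  have hall : ∀ v ∈ O, φ0 ⬝ᵥ v = 1 := by
    intro v hv
    by_cases hvv : v = v0
    · rw [hvv]; exact h1
    · have : v ∈ O.erase v0 := Finset.mem_erase.2 ⟨hvv, hv⟩
      rw [← hI] at this
      obtain ⟨i, -, rfl⟩ := Finset.mem_image.1 this
      rw [hφpow, hw1]
  have hφ0 : φ0 ≠ 0 := by
    rintro rfl
    simp at h1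
  have hOeq : O = Finset.univ.filter (fun v : Fin 4 → ZMod 2 => φ0 ⬝ᵥ v = 1) := by
    apply Finset.eq_of_subset_of_card_le
    · intro v hv
      exact Finset.mem_filter.2 ⟨Finset.mem_univ _, hall v hv⟩
    · rw [card_one φ0 hφ0, hOcard]
  have hiff : ∀ v : V4, v ∈ O ↔ φ0 ⬝ᵥ v = 1 := by
    intro v
    rw [hOeq]
    simp
  intro h hh v
  rcases zmod2 (φ0 ⬝ᵥ v) with hv | hv
  · rcases zmod2 (φ0 ⬝ᵥ (h • v)) with hv' | hv'
    · rw [hv, hv']
    · exfalso
      have h2 := hfwd h⁻¹ (H.inv_mem hh) _ ((hiff _).2 hv')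
      rw [inv_smul_smul, hiff, hv] at h2
      exact zero_ne_one h2
  · rw [hv]
    exact (hiff _).1 (hfwd h hh v ((hiff v).2 hv))

end Cfsg.Agent.Lib.H69G4Eight
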