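import Mathlib
import Cfsg.Agent.Lib.Helper69G4Defs

set_option autoImplicit false
set_option linter.unusedVariables false
set_option linter.unusedSectionVars false

namespace Cfsg.Agent.Lib.H69G4Fix7

open Cfsg Cfsg.Agent.Lib.Helper69G4Defs Equiv Equiv.Perm MulAction

/-- the space of fixed vectors -/
def fixSp (g : GL (Fin 4) (ZMod 2)) : Submodule (ZMod 2) V4 where
  carrier := {v | g • v = v}
  add_mem' := by
    intro a b ha hb
    simp only [Set.mem_setOf_eq, Helper69G4Defs.smul_def] at *
    rw [Matrix.mulVec_add, ha, hb]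
  zero_mem' := by
    simp only [Set.mem_setOf_eq, Helper69G4Defs.smul_def]
    rw [Matrix.mulVec_zero]
  smul_mem' := by
    intro c a ha
    simp only [Set.mem_setOf_eq, Helper69G4Defs.smul_def] at *
    rw [Matrix.mulVec_smul, ha]

theorem mem_fixSp (g : GL (Fin 4) (ZMod 2)) (v : V4) : v ∈ fixSp g ↔ g • v = v := Iff.rfl

theorem fixedPoints_eq (g : GL (Fin 4) (ZMod 2)) :
    (fixedPoints (Subgroup.zpowers g) V4 : Set V4) = (fixSp g : Set V4) := by
  ext v
  simp only [mem_fixedPoints, SetLike.mem_coe, mem_fixSp]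
  constructor
  · intro h
    exact h ⟨g, Subgroup.mem_zpowers g⟩
  · rintro h ⟨x, hx⟩
    have : Subgroup.zpowers g ≤ MulAction.stabilizer (GL (Fin 4) (ZMod 2)) v := by
      rw [Subgroup.zpowers_le]
      exact h
    exact this hx

theorem fixed_unique (g : GL (Fin 4) (ZMod 2)) (hg : orderOf g = 7) :
    ∃ v0 : V4, v0 ≠ 0 ∧ g • v0 = v0 ∧ ∀ v : V4, g • v = v → v = 0 ∨ v = v0 := by
  haveI : Fact (Nat.Prime 7) := ⟨by norm_num⟩
  have hp : IsPGroup 7 (Subgroup.zpowers g) := by
    apply IsPGroup.of_card (n := 1)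
    rw [Nat.card_zpowers, hg, pow_one]
  have h1 := hp.card_modEq_card_fixedPoints V4
  have h2 : Nat.card (fixedPoints (Subgroup.zpowers g) V4) = Nat.card (fixSp g) := by
    rw [fixedPoints_eq]; rfl
  rw [h2] at h1
  have h3 : Nat.card V4 = 16 := by
    simp [V4, Nat.card_eq_fintype_card, ZMod.card]
  rw [h3] at h1
  have h4 : Nat.card (fixSp g) = 2 ^ Module.finrank (ZMod 2) (fixSp g) := by
    rw [Module.natCard_eq_pow_finrank (K := ZMod 2)]
    simp [Nat.card_eq_fintype_card, ZMod.card]
  have h5 : Module.finrank (ZMod 2) (fixSp g) ≤ 4 := by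
    have := Submodule.finrank_le (fixSp g)
    simpa using this
  have h6 : Module.finrank (ZMod 2) (fixSp g) ≠ 4 := by
    intro h
    have htop : fixSp g = ⊤ := by
      apply Submodule.eq_top_of_finrank_eq
      rw [h]; simp
    have : g = 1 := by
      apply Units.ext
      ext i j
      have hm : (Pi.single j 1 : V4) ∈ fixSp g := by rw [htop]; trivial
      rw [mem_fixSp, Helper69G4Defs.smul_def, Matrix.mulVec_single_one] at hm
      have := congrFun hm i
      simp only [Matrix.col_apply, Pi.single_apply] at this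
      rw [this, Units.val_one, Matrix.one_apply]
    rw [this, orderOf_one] at hg
    omega
  have h7 : Nat.card (fixSp g) = 2 := by
    rw [h4] at h1 ⊢
    generalize Module.finrank (ZMod 2) (fixSp g) = j at *
    interval_cases j <;> first | rfl | (exfalso; revert h1; decide) | omega
  obtain ⟨y, hy, hu⟩ := (Nat.card_eq_two_iff' (0 : fixSp g)).1 h7
  refine ⟨y, fun h => hy (Subtype.ext h), y.2, fun v hv => ?_⟩
  by_cases h0 : v = 0
  · exact Or.inl h0
  · right
    have := hu ⟨v, hv⟩ (fun h => h0 (congrArg Subtype.val h))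
    exact congrArg Subtype.val this

end Cfsg.Agent.Lib.H69G4Fix7
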