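import Mathlib
import Cfsg.Agent.Lib.Helper69G4Defs

set_option autoImplicit false
set_option linter.unusedVariables false
set_option linter.unusedSectionVars false

namespace Cfsg.Agent.Lib.H69G4GLPSL

open Cfsg Cfsg.Agent.Lib.Helper69G4Defs Equiv Equiv.Perm MulAction

/-- Over `ZMod 2` every unit is 1: `det g = 1` for all `g : GL`, so `GL ≃* SL` (`Matrix.SpecialLinearGroup.toGL` is bijective),
and the centre of `SL` is trivial (`Matrix.SpecialLinearGroup.mem_center_iff`: scalar matrices `r • 1` with `r ^ n = 1`; `r = 0` is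
impossible for `n ≥ 1` and `r = 1` gives `1`; for `n = 0` everything is trivial), so `SL ≃* SL ⧸ center`
(`QuotientGroup.quotientBot` after rewriting the centre to `⊥`, or `MulEquiv.ofBijective (QuotientGroup.mk' _)`). -/
theorem gl_equiv_psl (n : ℕ) :
    Nonempty (GL (Fin n) (ZMod 2) ≃* Matrix.ProjectiveSpecialLinearGroup (Fin n) (ZMod 2)) := by
  have h1 : Function.Bijective
      (Matrix.SpecialLinearGroup.toGL :
        Matrix.SpecialLinearGroup (Fin n) (ZMod 2) →* GL (Fin n) (ZMod 2)) := by
    refine ⟨Matrix.SpecialLinearGroup.toGL_injective, ?_⟩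
    intro g
    have hd : Matrix.GeneralLinearGroup.det g = 1 := Subsingleton.elim _ _
    have hd' : (g : Matrix (Fin n) (Fin n) (ZMod 2)).det = 1 := congrArg Units.val hd
    exact ⟨⟨g.1, hd'⟩, Units.ext rfl⟩
  have hc : Subgroup.center (Matrix.SpecialLinearGroup (Fin n) (ZMod 2)) = ⊥ := by
    rw [eq_bot_iff]
    intro A hA
    rw [Matrix.SpecialLinearGroup.mem_center_iff] at hA
    obtain ⟨r, hr, hA⟩ := hA
    rw [Subgroup.mem_bot]
    apply Subtype.ext
    rw [← hA]
    have h01 : r = 0 ∨ r = 1 := by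
      have : ∀ r : ZMod 2, r = 0 ∨ r = 1 := by decide
      exact this r
    rcases h01 with rfl | rfl
    · rcases Nat.eq_zero_or_pos n with rfl | hn
      · exact Subsingleton.elim _ _
      · rw [Fintype.card_fin, zero_pow hn.ne'] at hr
        exact absurd hr (by decide)
    · simp
  have h2 : Function.Bijective
      (QuotientGroup.mk' (Subgroup.center (Matrix.SpecialLinearGroup (Fin n) (ZMod 2)))) := by
    refine ⟨?_, QuotientGroup.mk'_surjective _⟩
    rw [← MonoidHom.ker_eq_bot_iff, QuotientGroup.ker_mk', hc]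
  exact ⟨(MulEquiv.ofBijective _ h1).symm.trans (MulEquiv.ofBijective _ h2)⟩

end Cfsg.Agent.Lib.H69G4GLPSL
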