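import Mathlib
import Cfsg.Agent.Lib.Helper69G4Defs
import Cfsg.Agent.Lib.H69G4GLPSL
import Cfsg.Agent.S0249
import Cfsg.Agent.S0256
import Cfsg.Agent.S0991

set_option autoImplicit false
set_option linter.unusedVariables false
set_option linter.unusedSectionVars false

namespace Cfsg.Agent.Lib.H69G4GL3

open Cfsg Cfsg.Agent.Lib.Helper69G4Defs Equiv Equiv.Perm MulAction

/-- `gl_equiv_psl 4` and `Cfsg.Agent.S0256.result` (`ZMod.card 2`) -/
theorem gl4_equiv : Nonempty (GL (Fin 4) (ZMod 2) ≃* alternatingGroup (Fin 8)) := by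
  obtain ⟨e⟩ := H69G4GLPSL.gl_equiv_psl 4
  obtain ⟨f⟩ := Cfsg.Agent.S0256.result (F := ZMod 2) (ZMod.card 2)
  exact ⟨e.trans f⟩

/-- `gl_equiv_psl 3` and `Cfsg.Agent.S0249.result 3` (`isSimpleGroup_of_surjective` / `MulEquiv.isSimpleGroup`) -/
theorem simple_GL3 : IsSimpleGroup (GL (Fin 3) (ZMod 2)) := by
  obtain ⟨e⟩ := H69G4GLPSL.gl_equiv_psl 3
  haveI := Cfsg.Agent.S0249.result (F := ZMod 2) 3 le_rfl
  exact e.isSimpleGroup

/-- `Matrix.card_GL_field` -/
theorem card_GL3 : Nat.card (GL (Fin 3) (ZMod 2)) = 168 := by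
  rw [Matrix.card_GL_field]
  simp [Finset.prod_fin_eq_prod_range, Finset.prod_range_succ, ZMod.card]

/-- `Matrix.card_GL_field` -/
theorem card_GL4 : Nat.card (GL (Fin 4) (ZMod 2)) = 20160 := by
  rw [Matrix.card_GL_field]
  simp [Finset.prod_fin_eq_prod_range, Finset.prod_range_succ, ZMod.card]

/-- `Cfsg.Agent.S0991.result`: `GL(3,2)` embeds in `A_d`, `d = R.index`, so `168 ∣ d!/2 ∣ d!`, so `7 ∣ d!`, so `7 ≤ d`
(`Nat.Prime.dvd_factorial`).  Not commutative: order 168 simple is not of prime order, or exhibit two matrices. -/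
theorem index_GL3 (R : Subgroup (GL (Fin 3) (ZMod 2))) (hR : R ≠ ⊤) : 7 ≤ R.index := by
  haveI := simple_GL3
  have hnc : ¬ IsMulCommutative (GL (Fin 3) (ZMod 2)) := by
    intro hc
    letI : CommGroup (GL (Fin 3) (ZMod 2)) := { (inferInstance : Group (GL (Fin 3) (ZMod 2))) with
      mul_comm := fun a b => hc.is_comm.comm a b }
    have hp := IsSimpleGroup.prime_card (α := GL (Fin 3) (ZMod 2))
    rw [card_GL3] at hp
    exact absurd hp (by norm_num)
  obtain ⟨f, hf⟩ := Cfsg.Agent.S0991.result hnc R hR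
  have h1 : Nat.card (GL (Fin 3) (ZMod 2)) ∣ Nat.card (alternatingGroup (Fin R.index)) :=
    Subgroup.card_dvd_of_injective f hf
  have h2 : Nat.card (alternatingGroup (Fin R.index)) ∣ Nat.card (Perm (Fin R.index)) :=
    Subgroup.card_subgroup_dvd_card _
  have h3 : Nat.card (Perm (Fin R.index)) = (R.index).factorial := by
    rw [Nat.card_eq_fintype_card, Fintype.card_perm, Fintype.card_fin]
  rw [card_GL3] at h1
  rw [h3] at h2
  have h7 : 7 ∣ (R.index).factorial := Dvd.dvd.trans (by norm_num) (h1.trans h2)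
  exact (Nat.Prime.dvd_factorial (by norm_num)).1 h7

end Cfsg.Agent.Lib.H69G4GL3
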