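import Mathlib
import Cfsg.Agent.Lib.Helper69G4Defs

set_option autoImplicit false
set_option linter.unusedVariables false
set_option linter.unusedSectionVars false

namespace Cfsg.Agent.Lib.H69G4Solv

open Cfsg Cfsg.Agent.Lib.Helper69G4Defs Equiv Equiv.Perm MulAction
open scoped commutatorElement

/-- an abelian normal subgroup of a `CF` group is trivial -/
theorem normal_abelian {H : Type*} [Group H] [Finite H] (h : CF H) (A : Subgroup H) (hA : A.Normal)
    (hc : ∀ a b : A, a * b = b * a) : A = ⊥ := by
  by_contra hne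
  have hcard : Nat.card A ≠ 1 := by
    intro h1
    exact hne (Subgroup.card_eq_one.1 h1)
  obtain ⟨p, hp, hpd⟩ := Nat.exists_prime_and_dvd hcard
  have : Fact p.Prime := ⟨hp⟩
  let P : Sylow p A := default
  have hPn : (P : Subgroup A).Normal := by
    constructor
    intro x hx g
    rw [hc g x, mul_inv_cancel_right]
    exact hx
  have hPc : (P : Subgroup A).Characteristic := Sylow.characteristic_of_normal P hPn
  have hnorm : ((P : Subgroup A).map A.subtype).Normal := inferInstance
  have hPne : (P : Subgroup A) ≠ ⊥ := Sylow.ne_bot_of_dvd_card P hpd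
  have hmapne : (P : Subgroup A).map A.subtype ≠ ⊥ := by
    intro h0
    exact hPne ((Subgroup.map_eq_bot_iff_of_injective _ A.subtype_injective).1 h0)
  have hpg : IsPGroup p ((P : Subgroup A).map A.subtype) := P.2.map A.subtype
  by_cases h2 : p = 2
  · subst h2
    exact hmapne (h.1 _ hnorm hpg)
  · apply hmapne (h.2 _ hnorm _)
    obtain ⟨k, hk⟩ := IsPGroup.iff_card.1 hpg
    rw [hk]
    exact Nat.Coprime.pow_left k ((Nat.coprime_primes hp Nat.prime_two).2 h2)

/-- A solvable normal subgroup of a `CF` group is trivial. -/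
theorem normal_solvable {H : Type*} [Group H] [Finite H] (h : CF H) (N : Subgroup H) (hN : N.Normal)
    (hs : Group.IsSolvable N) : N = ⊥ := by
  by_contra hne
  have hex : ∃ n, derivedSeries N n = ⊥ := hs.solvable
  classical
  let n := Nat.find hex
  have hn : derivedSeries N n = ⊥ := Nat.find_spec hex
  have hn0 : n ≠ 0 := by
    intro h0
    rw [h0, derivedSeries_zero] at hn
    apply hne
    rw [Subgroup.eq_bot_iff_forall]
    intro x hx
    have : (⟨x, hx⟩ : N) ∈ (⊤ : Subgroup N) := Subgroup.mem_top _
    rw [hn, Subgroup.mem_bot] at this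
    exact congrArg Subtype.val this
  obtain ⟨m, hm⟩ := Nat.exists_eq_succ_of_ne_zero hn0
  have hDne : derivedSeries N m ≠ ⊥ := Nat.find_min hex (m := m) (by omega)
  have hcomm : ⁅derivedSeries N m, derivedSeries N m⁆ = ⊥ := by
    rw [← derivedSeries_succ, ← Nat.succ_eq_add_one, ← hm]
    exact hn
  have hnorm : ((derivedSeries N m).map N.subtype).Normal := inferInstance
  have hbot := normal_abelian h _ hnorm (by
    rintro ⟨_, a, ha, rfl⟩ ⟨_, b, hb, rfl⟩
    apply Subtype.ext
    have h1 : ⁅a, b⁆ ∈ ⁅derivedSeries N m, derivedSeries N m⁆ :=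
      Subgroup.commutator_mem_commutator ha hb
    rw [hcomm, Subgroup.mem_bot, commutatorElement_eq_one_iff_mul_comm] at h1
    exact congrArg (Subtype.val : N → H) h1)
  exact hDne ((Subgroup.map_eq_bot_iff_of_injective _ N.subtype_injective).1 hbot)

/-- apply `normal_solvable` to `⊤` -/
theorem not_solvable {H : Type*} [Group H] [Finite H] (h : CF H) (hne : Nontrivial H) :
    ¬ Group.IsSolvable H := by
  intro hs
  have hs' : Group.IsSolvable (⊤ : Subgroup H) :=
    Group.isSolvable_of_isSolvable_injective (f := (⊤ : Subgroup H).subtype) Subtype.val_injective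
  have := normal_solvable h ⊤ inferInstance hs'
  exact (Subgroup.nontrivial_iff.2 hne).exists_pair_ne.elim (fun a ⟨b, hab⟩ => by
    exact bot_ne_top this.symm)

end Cfsg.Agent.Lib.H69G4Solv
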