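import Mathlib
import Cfsg.Agent.Lib.Helper69G4Defs
import Cfsg.Agent.Lib.H69G4Solv
import Cfsg.Agent.Lib.H69G4Ord
import Cfsg.Agent.Lib.H69G4GL3

set_option autoImplicit false
set_option linter.unusedVariables false
set_option linter.unusedSectionVars false

namespace Cfsg.Agent.Lib.H69G4LinFin

open Cfsg Cfsg.Agent.Lib.Helper69G4Defs Equiv Equiv.Perm MulAction

theorem lin_final (H : Type*) [Group H] [Finite H] (hcf : CF H) (h7 : 7 ∣ Nat.card H)
    (f : H →* GL (Fin 3) (ZMod 2)) (hker : ∀ h ∈ f.ker, h ^ 2 = 1) :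
    Nonempty (H ≃* GL (Fin 3) (ZMod 2)) := by
  have hk : f.ker = ⊥ := by
    apply hcf.1 _ inferInstance
    intro x
    refine ⟨1, ?_⟩
    apply Subtype.ext
    have := hker x x.2
    simpa using this
  have hinj : Function.Injective f := (MonoidHom.ker_eq_bot_iff f).1 hk
  have e : H ≃* f.range := MonoidHom.ofInjective hinj
  by_cases hR : f.range = ⊤
  · exact ⟨e.trans ((MulEquiv.subgroupCongr hR).trans Subgroup.topEquiv)⟩
  · exfalso
    have h1 := H69G4GL3.index_GL3 _ hR
    have h2 := Subgroup.card_mul_index f.range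
    rw [H69G4GL3.card_GL3, ← Nat.card_congr e.toEquiv] at h2
    have hne : Nontrivial H := by
      rw [← Finite.one_lt_card_iff_nontrivial]
      have := Nat.le_of_dvd Nat.card_pos h7
      omega
    apply H69G4Solv.not_solvable hcf hne
    obtain ⟨c, hc⟩ := h7
    generalize f.range.index = d at h1 h2
    rw [hc] at h2
    have hcd : c * d = 24 := by nlinarith
    have hc3 : c ≤ 3 := by nlinarith
    have hc0 : 0 < c := by
      rcases Nat.eq_zero_or_pos c with h | h
      · rw [h] at hcd; omega
      · exact h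
    have hcases : c = 1 ∨ c = 2 ∨ c = 3 := by omega
    rcases hcases with h | h | h
    · apply H69G4Ord.solvable_of_dvd 2 7 0 1 (by norm_num) (by norm_num)
      rw [hc, h]; norm_num
    · apply H69G4Ord.solvable_of_dvd 2 7 1 1 (by norm_num) (by norm_num)
      rw [hc, h]; norm_num
    · apply H69G4Ord.solvable_of_dvd 3 7 1 1 (by norm_num) (by norm_num)
      rw [hc, h]; norm_num

end Cfsg.Agent.Lib.H69G4LinFin
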