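import Mathlib
import Cfsg.Agent.Lib.Helper69G4Defs

set_option autoImplicit false
set_option linter.unusedVariables false
set_option linter.unusedSectionVars false

namespace Cfsg.Agent.Lib.H69G4Multi

open Cfsg Cfsg.Agent.Lib.Helper69G4Defs Equiv Equiv.Perm MulAction

theorem multi {k : ℕ} (hk : 7 ≤ k) (K : Subgroup (Perm (Fin k))) (hprim : IsPreprimitive K (Fin k))
    (c : Perm (Fin k)) (hcK : c ∈ K) (hc : c.IsCycle) (hc5 : c.support.card = 5) :
    IsMultiplyPretransitive K (Fin k) (k - 4) := by
  classical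
  obtain ⟨n, hn⟩ := Nat.exists_eq_add_of_le' hk
  have hcard : Nat.card (Fin k) = k := by simp
  suffices IsMultiplyPreprimitive K (Fin k) (k - 4) from
    IsMultiplyPreprimitive.isMultiplyPretransitive ..
  rw [show k - 4 = (n + 1) + 2 by omega]
  apply hprim.isMultiplyPreprimitive (s := (c.supportᶜ : Set (Fin k)))
  · apply Nat.add_left_cancel
    rw [Set.ncard_add_ncard_compl, Set.ncard_coe_finset, hc5, hcard]
    omega
  · rw [hcard]; omega
  have := isPretransitive_of_isCycle_mem hc hcK
  apply IsPreprimitive.of_prime_card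
  convert! Nat.prime_five
  rw [Nat.card_eq_fintype_card, Fintype.card_subtype, ← hc5]
  apply congr_arg
  ext x
  simp [SubMulAction.mem_ofFixingSubgroup_iff]

end Cfsg.Agent.Lib.H69G4Multi
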