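import Mathlib
import Cfsg.Agent.Lib.Helper69G4Defs

set_option autoImplicit false
set_option linter.unusedVariables false
set_option linter.unusedSectionVars false

namespace Cfsg.Agent.Lib.H69G4Norm

open Cfsg Cfsg.Agent.Lib.Helper69G4Defs Equiv Equiv.Perm MulAction

/-- the norm matrix -/
def Nm (g : GL (Fin 4) (ZMod 2)) : Matrix (Fin 4) (Fin 4) (ZMod 2) :=
  ∑ i ∈ Finset.range 7, ((g ^ i : GL (Fin 4) (ZMod 2)) : Matrix (Fin 4) (Fin 4) (ZMod 2))

theorem sum_eq (g : GL (Fin 4) (ZMod 2)) (v : V4) :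
    ∑ i ∈ Finset.range 7, (g ^ i) • v = (Nm g).mulVec v := by
  rw [Nm, Matrix.sum_mulVec]
  rfl

theorem mul_Nm (g : GL (Fin 4) (ZMod 2)) (hg : g ^ 7 = 1) :
    (g : Matrix (Fin 4) (Fin 4) (ZMod 2)) * Nm g = Nm g := by
  have h7 : (g : Matrix (Fin 4) (Fin 4) (ZMod 2)) ^ 7 = 1 := by
    have := congrArg (fun x : GL (Fin 4) (ZMod 2) => (x : Matrix (Fin 4) (Fin 4) (ZMod 2))) hg
    simpa using this
  simp only [Nm, Units.val_pow_eq_pow_val]
  rw [Finset.mul_sum]
  simp only [← pow_succ']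
  rw [Finset.sum_range_succ (fun i => (g : Matrix (Fin 4) (Fin 4) (ZMod 2)) ^ (i + 1)) 6,
    Finset.sum_range_succ' (fun i => (g : Matrix (Fin 4) (Fin 4) (ZMod 2)) ^ i) 6, h7, pow_zero]

theorem Nm_mul (g : GL (Fin 4) (ZMod 2)) (hg : g ^ 7 = 1) :
    Nm g * (g : Matrix (Fin 4) (Fin 4) (ZMod 2)) = Nm g := by
  have h7 : (g : Matrix (Fin 4) (Fin 4) (ZMod 2)) ^ 7 = 1 := by
    have := congrArg (fun x : GL (Fin 4) (ZMod 2) => (x : Matrix (Fin 4) (Fin 4) (ZMod 2))) hg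
    simpa using this
  simp only [Nm, Units.val_pow_eq_pow_val]
  rw [Finset.sum_mul]
  simp only [← pow_succ]
  rw [Finset.sum_range_succ (fun i => (g : Matrix (Fin 4) (Fin 4) (ZMod 2)) ^ (i + 1)) 6,
    Finset.sum_range_succ' (fun i => (g : Matrix (Fin 4) (Fin 4) (ZMod 2)) ^ i) 6, h7, pow_zero]

/-- `N v := ∑ i < 7, g^i • v` is fixed by `g` (reindex, `g^7 = 1`), so `N v ∈ {0, v0}`; `N` is additive, `N v0 = 7 • v0 = v0`,
`N (g • v) = N v`.  Define `φ0 j := if N (Pi.single j 1) = v0 then 1 else 0`; then `N v = (φ0 ⬝ᵥ v) • v0` by linearity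
(`v = ∑ j, v j • Pi.single j 1`), and the other two claims follow from `v0 ≠ 0`. -/
theorem exists_covec (g : GL (Fin 4) (ZMod 2)) (hg : orderOf g = 7) (v0 : V4) (h0 : v0 ≠ 0)
    (hfix : g • v0 = v0) (huniq : ∀ v : V4, g • v = v → v = 0 ∨ v = v0) :
    ∃ φ0 : V4, φ0 ⬝ᵥ v0 = 1 ∧ (∀ v : V4, φ0 ⬝ᵥ (g • v) = φ0 ⬝ᵥ v) ∧
      ∀ v : V4, ∑ i ∈ Finset.range 7, (g ^ i) • v = (φ0 ⬝ᵥ v) • v0 := by
  classical
  have hg7 : g ^ 7 = 1 := by rw [← hg]; exact pow_orderOf_eq_one g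
  have hN : ∀ v : V4, (Nm g).mulVec v = 0 ∨ (Nm g).mulVec v = v0 := by
    intro v
    apply huniq
    rw [Helper69G4Defs.smul_def, Matrix.mulVec_mulVec, mul_Nm g hg7]
  set φ0 : V4 := fun j => if (Nm g).mulVec (Pi.single j 1) = v0 then 1 else 0 with hφ
  have hsingle : ∀ j : Fin 4, (Nm g).mulVec (Pi.single j 1) = φ0 j • v0 := by
    intro j
    rcases hN (Pi.single j 1) with h | h
    · have : φ0 j = 0 := by
        simp only [hφ]
        rw [if_neg]
        rw [h]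
        exact fun h' => h0 h'.symm
      rw [this, h, zero_smul]
    · have : φ0 j = 1 := by
        simp only [hφ]
        rw [if_pos h]
      rw [this, h, one_smul]
  have hmain : ∀ v : V4, (Nm g).mulVec v = (φ0 ⬝ᵥ v) • v0 := by
    intro v
    have hv : v = ∑ j, v j • (Pi.single j 1 : V4) := by
      funext k
      simp [Finset.sum_apply, Pi.single_apply]
    conv_lhs => rw [hv]
    rw [Matrix.mulVec_sum]
    simp only [Matrix.mulVec_smul, hsingle]
    rw [dotProduct, Finset.sum_smul]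
    apply Finset.sum_congr rfl
    intro j _
    rw [smul_smul, mul_comm]
  have hinj : ∀ a b : ZMod 2, a • v0 = b • v0 → a = b := by
    intro a b hab
    obtain ⟨k, hk⟩ : ∃ k, v0 k ≠ 0 := by
      by_contra hcon
      push Not at hcon
      exact h0 (funext hcon)
    have h1 := congrFun hab k
    simp only [Pi.smul_apply, smul_eq_mul] at h1
    exact mul_right_cancel₀ hk h1
  have hpow : ∀ i : ℕ, (g ^ i) • v0 = v0 := by
    intro i
    have : g ∈ stabilizer (GL (Fin 4) (ZMod 2)) v0 := hfix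
    exact Subgroup.pow_mem _ this i
  refine ⟨φ0, ?_, ?_, ?_⟩
  · apply hinj
    rw [← hmain, ← sum_eq, one_smul]
    simp only [hpow]
    rw [Finset.sum_const, Finset.card_range]
    funext k
    have : ∀ x : ZMod 2, 7 • x = x := by decide
    simp [this]
  · intro v
    apply hinj
    rw [← hmain, ← hmain, Helper69G4Defs.smul_def, Matrix.mulVec_mulVec, Nm_mul g hg7]
  · intro v
    rw [sum_eq, hmain]

end Cfsg.Agent.Lib.H69G4Norm
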