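import Mathlib
import Cfsg.Agent.Lib.Helper69G4Defs

set_option autoImplicit false
set_option linter.unusedVariables false
set_option linter.unusedSectionVars false

namespace Cfsg.Agent.Lib.H69G4Orb

open Cfsg Cfsg.Agent.Lib.Helper69G4Defs Equiv Equiv.Perm MulAction

theorem smul_zero' (h : GL (Fin 4) (ZMod 2)) : h • (0 : V4) = 0 := by
  rw [Helper69G4Defs.smul_def, Matrix.mulVec_zero]

/-- `zpowers g` (order 7) acts on the orbit `O` of `v0` under `H` with the single fixed point `v0` (`0 ∉ O` because `h • v0 = 0` forces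
`v0 = 0`), so `card O ≡ 1 mod 7` (`IsPGroup.card_modEq_card_fixedPoints`); `O` consists of nonzero vectors, so `card O ≤ 15`:
`card O ∈ {1, 8, 15}`.  `card O ∣ card H` (`MulAction.card_orbit_mul_card_stabilizer_eq_card_group`) excludes 15. -/
theorem card_orbit (H : Subgroup (GL (Fin 4) (ZMod 2))) (g : GL (Fin 4) (ZMod 2)) (hgH : g ∈ H)
    (hg : orderOf g = 7) (v0 : V4) (h0 : v0 ≠ 0) (hfix : g • v0 = v0)
    (huniq : ∀ v : V4, g • v = v → v = 0 ∨ v = v0) (h5 : ¬ 5 ∣ Nat.card H) :
    Nat.card (orbit H v0) = 1 ∨ Nat.card (orbit H v0) = 8 := by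
  classical
  haveI : Fact (Nat.Prime 7) := ⟨by norm_num⟩
  set g' : H := ⟨g, hgH⟩ with hg'
  have hord : orderOf g' = 7 := by rw [hg', Subgroup.orderOf_mk, hg]
  have hP : IsPGroup 7 (Subgroup.zpowers g') := by
    apply IsPGroup.of_card (n := 1)
    rw [Nat.card_zpowers, hord, pow_one]
  have hne : ∀ x : orbit H v0, (x : V4) ≠ 0 := by
    rintro ⟨x, ⟨h, rfl⟩⟩ hx
    apply h0
    have hx' : (h : GL (Fin 4) (ZMod 2)) • v0 = 0 := hx
    have := congrArg (fun w => (h : GL (Fin 4) (ZMod 2))⁻¹ • w) hx'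
    simpa [smul_zero'] using this
  have hmod := hP.card_modEq_card_fixedPoints (orbit H v0)
  have hfp : Nat.card (fixedPoints (Subgroup.zpowers g') (orbit H v0)) = 1 := by
    rw [Nat.card_eq_one_iff_unique]
    refine ⟨⟨?_⟩, ⟨⟨⟨v0, mem_orbit_self v0⟩, ?_⟩⟩⟩
    · rintro ⟨a, ha⟩ ⟨b, hb⟩
      have key : ∀ x : orbit H v0, x ∈ fixedPoints (Subgroup.zpowers g') (orbit H v0) →
          (x : V4) = v0 := by
        intro x hx
        have h1 := hx ⟨g', Subgroup.mem_zpowers g'⟩
        have h2 : g • (x : V4) = x := congrArg Subtype.val h1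
        rcases huniq _ h2 with h3 | h3
        · exact absurd h3 (hne x)
        · exact h3
      apply Subtype.ext
      apply Subtype.ext
      rw [key a ha, key b hb]
    · rintro ⟨k, hk⟩
      obtain ⟨n, rfl⟩ := Subgroup.mem_zpowers_iff.1 hk
      apply Subtype.ext
      change ((g' ^ n : H) : GL (Fin 4) (ZMod 2)) • v0 = v0
      have : g ∈ stabilizer (GL (Fin 4) (ZMod 2)) v0 := hfix
      have h2 := Subgroup.zpow_mem _ this n
      simpa [hg'] using h2
  rw [hfp] at hmod
  have hle : Nat.card (orbit H v0) ≤ 15 := by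
    have h16 : Nat.card V4 = 16 := by
      simp [V4, Nat.card_eq_fintype_card, ZMod.card]
    have hsub : (orbit H v0) ⊆ ({0}ᶜ : Set V4) := by
      intro x hx
      exact hne ⟨x, hx⟩
    have h1 : Nat.card (orbit H v0) ≤ Nat.card ({0}ᶜ : Set V4) :=
      Nat.card_mono (Set.toFinite _) hsub
    have h2 : Nat.card ({0}ᶜ : Set V4) = 15 := by
      rw [Nat.card_coe_set_eq, Set.ncard_compl, Set.ncard_singleton, h16]
    omega
  have hdvd : Nat.card (orbit H v0) ∣ Nat.card H := by
    rw [Nat.card_coe_set_eq, ← index_stabilizer]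
    exact Subgroup.index_dvd_card _
  have hpos : 0 < Nat.card (orbit H v0) := by
    haveI : Nonempty (orbit H v0) := ⟨⟨v0, mem_orbit_self v0⟩⟩
    exact Nat.card_pos
  have hm : Nat.card (orbit H v0) % 7 = 1 := hmod
  have h15 : Nat.card (orbit H v0) ≠ 15 := by
    intro h
    apply h5
    rw [h] at hdvd
    exact Dvd.dvd.trans (by norm_num) hdvd
  omega

end Cfsg.Agent.Lib.H69G4Orb
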