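import Mathlib
import Cfsg.Agent.Lib.Helper69G4Defs

set_option autoImplicit false
set_option linter.unusedVariables false
set_option linter.unusedSectionVars false

namespace Cfsg.Agent.Lib.H69G4Prim8

open Cfsg Cfsg.Agent.Lib.Helper69G4Defs Equiv Equiv.Perm MulAction
open scoped Pointwise

/-- Let `B` be a block, `B` nontrivial (`1 < ncard B`).  By transitivity translate `B` so that it contains a point `x` moved by `c` (translates of blocks are blocks,
`IsBlock.translate`).  `ncard B ∣ 8` (`IsBlock.ncard_dvd_card`).  If `c • B = B` then `B ⊇ {c^i x}`, 5 points, so `ncard B = 8`, `B = univ`.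
If `c • B ≠ B` then the `c^i • B`, `i < 5`, are pairwise disjoint (`c^i • B = c^j • B` implies `c^(j-i) • B = B`, and `c^(j-i)` generates `zpowers c`, of prime order 5),
each with `≥ 2` points: `10 ≤ 8`, contradiction. -/
theorem prim8 (K : Subgroup (Perm (Fin 8))) (htr : IsPretransitive K (Fin 8)) (c : Perm (Fin 8))
    (hcK : c ∈ K) (hc : c.IsCycle) (hc5 : c.support.card = 5) : IsPreprimitive K (Fin 8) := by
  classical
  have := htr
  obtain ⟨x, hx⟩ : ∃ x, x ∈ c.support := by
    apply Finset.card_pos.1
    rw [hc5]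
    norm_num
  obtain ⟨c', hc'⟩ : ∃ c' : K, c' = ⟨c, hcK⟩ := ⟨_, rfl⟩
  have hcoe : (c' : Perm (Fin 8)) = c := by rw [hc']
  have hord : orderOf c' = 5 := by
    rw [← Subgroup.orderOf_coe, hcoe, hc.orderOf, hc5]
  apply IsPreprimitive.of_isTrivialBlock_base x
  intro B hxB hB
  by_cases hcB : c' • B = B
  · right
    apply hB.eq_univ_of_card_lt
    have hsub : (c.support : Set (Fin 8)) ⊆ B := by
      intro y hy
      obtain ⟨i, hi⟩ := hc.sameCycle (mem_support.1 hx) (mem_support.1 (Finset.mem_coe.1 hy))
      have h1 : c' ^ i ∈ stabilizer K B := Subgroup.zpow_mem _ (mem_stabilizer_iff.2 hcB) i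
      have h2 : (c' ^ i) • B = B := mem_stabilizer_iff.1 h1
      rw [← h2, ← hi]
      refine ⟨x, hxB, ?_⟩
      change ((c' ^ i : K) : Perm (Fin 8)) x = (c ^ i) x
      rw [Subgroup.coe_zpow, hcoe]
    have h5 : 5 ≤ B.ncard := by
      rw [← hc5, ← Set.ncard_coe_finset]
      exact Set.ncard_le_ncard hsub (Set.toFinite _)
    rw [Nat.card_eq_fintype_card, Fintype.card_fin]
    omega
  · left
    apply hB.subsingleton_of_card_lt
    have hfree : ∀ n : ℕ, 0 < n → n < 5 → c' ^ n • B ≠ B := by
      intro n hn0 hn5 hfixn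
      have hcop : Nat.Coprime n 5 := by
        rw [Nat.coprime_comm]
        exact (Nat.Prime.coprime_iff_not_dvd (by norm_num)).2 (fun hd => by
          have := Nat.le_of_dvd hn0 hd
          omega)
      obtain ⟨m, -, hm⟩ := Nat.exists_mul_mod_eq_one_of_coprime hcop (by norm_num)
      have h2 : (c' ^ n) ^ m ∈ stabilizer K B :=
        Subgroup.pow_mem _ (mem_stabilizer_iff.2 hfixn) m
      rw [← pow_mul, ← pow_mod_orderOf, hord, hm, pow_one] at h2
      exact hcB (mem_stabilizer_iff.1 h2)
    have hinj : Set.InjOn (fun i : ℕ => c' ^ i • B) (Finset.range 5 : Set ℕ) := by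
      have key : ∀ i j : ℕ, i < j → j < 5 → c' ^ i • B ≠ c' ^ j • B := by
        intro i j hij hj h
        have e : c' ^ j = c' ^ i * c' ^ (j - i) := by rw [← pow_add]; congr 1; omega
        rw [e, mul_smul] at h
        exact hfree (j - i) (by omega) (by omega) (smul_left_cancel _ h).symm
      intro i hi j hj h
      simp only [Finset.coe_range, Set.mem_Iio] at hi hj
      rcases lt_trichotomy i j with hlt | heq | hgt
      · exact (key i j hlt hj h).elim
      · exact heq
      · exact (key j i hgt hi h.symm).elim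
    have h5 : 5 ≤ (orbit K B).ncard := by
      have hsub : (fun i : ℕ => c' ^ i • B) '' (Finset.range 5 : Set ℕ) ⊆ orbit K B := by
        rintro _ ⟨i, -, rfl⟩
        exact ⟨c' ^ i, rfl⟩
      have h1 := Set.ncard_le_ncard hsub (Set.toFinite _)
      rw [Set.ncard_image_of_injOn hinj, Set.ncard_coe_finset, Finset.card_range] at h1
      exact h1
    rw [Nat.card_eq_fintype_card, Fintype.card_fin]
    omega

end Cfsg.Agent.Lib.H69G4Prim8
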