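import Mathlib
import Cfsg.Agent.Lib.Helper69G4Defs

set_option autoImplicit false
set_option linter.unusedVariables false
set_option linter.unusedSectionVars false

namespace Cfsg.Agent.Lib.H69G4RedK

open Cfsg Cfsg.Agent.Lib.Helper69G4Defs Equiv Equiv.Perm MulAction

/-- `h ∈ ker` iff `h` fixes every point of the orbit `Δ` (`rho_apply`, `coe_smul_orbit`).  Such an `h` preserves the complement `Δᶜ`; restriction
(`Equiv.Perm.subtypePerm`) is an injective hom `ker →* Perm ↥Δᶜ`; `Subgroup.card_dvd_of_injective`, `Nat.card_perm`,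
`Nat.card ↥Δᶜ = 8 - Nat.card Δ`. -/
theorem card_ker_dvd (K : Subgroup (Perm (Fin 8))) (x0 : Fin 8) :
    Nat.card (rho K x0).ker ∣ (8 - Nat.card (orbit K x0)).factorial := by
  classical
  have h1 : Nat.card ((rho K x0).ker.map K.subtype) = Nat.card (rho K x0).ker :=
    Subgroup.card_map_of_injective K.subtype_injective
  have h2 : (rho K x0).ker.map K.subtype ≤
      (ofSubtype : Perm (Subtype fun x => x ∉ orbit K x0) →* Perm (Fin 8)).range := by
    rintro _ ⟨h, hh, rfl⟩
    rw [mem_range_ofSubtype_iff]
    intro x hx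
    simp only [Finset.mem_coe, mem_support] at hx
    show x ∉ orbit K x0
    intro hxo
    apply hx
    have h3 := rho_apply K x0 h ⟨x, hxo⟩
    rw [MonoidHom.mem_ker.mp hh, Perm.one_apply] at h3
    have h4 := (orbEquiv K x0).injective h3
    have h5 := congrArg Subtype.val h4
    rw [coe_smul_orbit] at h5
    exact h5.symm
  have h3 := Subgroup.card_dvd_of_le h2
  rw [h1, ← Nat.card_congr (MonoidHom.ofInjective (ofSubtype_injective
    (p := fun x => x ∉ orbit K x0))).toEquiv, Nat.card_perm] at h3
  have h4 : Nat.card (Subtype fun x => x ∉ orbit K x0) = 8 - Nat.card (orbit K x0) := by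
    rw [Nat.card_eq_fintype_card, Nat.card_eq_fintype_card, Fintype.card_subtype_compl]
    simp
  rw [h4] at h3
  exact h3

end Cfsg.Agent.Lib.H69G4RedK
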