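import Mathlib
import Cfsg.Agent.Lib.Helper69G4Defs

set_option autoImplicit false
set_option linter.unusedVariables false
set_option linter.unusedSectionVars false

namespace Cfsg.Agent.Lib.H69G4RedS

open Cfsg Cfsg.Agent.Lib.Helper69G4Defs Equiv Equiv.Perm MulAction

/-- At most one point `z` lies outside the orbit `Δ`, and then `h z = z` (`h` preserves `Δ`).  So all moved points of `h` are in `Δ`:
`Equiv.Perm.sign_subtypePerm`; `toPermHom K Δ h = subtypePerm h _` (ext), and `Equiv.Perm.sign_permCongr` for the renumbering. -/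
theorem sign_rho (K : Subgroup (Perm (Fin 8))) (x0 : Fin 8) (h7 : 7 ≤ Nat.card (orbit K x0))
    (h : K) : sign (rho K x0 h) = sign (h : Perm (Fin 8)) := by
  classical
  have hinv : ∀ x, (h : Perm (Fin 8)) x ∈ orbit K x0 ↔ x ∈ orbit K x0 := by
    intro x
    constructor
    · rintro ⟨k, hk⟩
      refine ⟨h⁻¹ * k, ?_⟩
      have hk' : k • x0 = h • x := hk
      change (h⁻¹ * k) • x0 = x
      rw [mul_smul, hk', inv_smul_smul]
    · rintro ⟨k, rfl⟩
      exact ⟨h * k, by change (h * k) • x0 = h • (k • x0); rw [mul_smul]⟩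
  have h2 : ∀ x, (h : Perm (Fin 8)) x ≠ x → x ∈ orbit K x0 := by
    intro x hx
    by_contra hxo
    have hxo' : (h : Perm (Fin 8)) x ∉ orbit K x0 := fun hh => hxo ((hinv x).1 hh)
    have hsub : orbit K x0 ⊆ ((Finset.univ \ {x, (h : Perm (Fin 8)) x} : Finset (Fin 8)) : Set (Fin 8)) := by
      intro y hy
      simp only [Finset.coe_sdiff, Finset.coe_univ, Finset.coe_insert, Finset.coe_singleton,
        Set.mem_sdiff, Set.mem_univ, Set.mem_insert_iff, Set.mem_singleton_iff, true_and]
      rintro (rfl | rfl)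
      · exact hxo hy
      · exact hxo' hy
    have h1 : Nat.card (orbit K x0) ≤
        Nat.card ((Finset.univ \ {x, (h : Perm (Fin 8)) x} : Finset (Fin 8)) : Set (Fin 8)) :=
      Nat.card_mono (Set.toFinite _) hsub
    have h6 : Nat.card ((Finset.univ \ {x, (h : Perm (Fin 8)) x} : Finset (Fin 8)) : Set (Fin 8)) = 6 := by
      rw [Nat.card_coe_set_eq, Set.ncard_coe_finset,
        Finset.card_sdiff_of_subset (Finset.subset_univ _),
        Finset.card_univ, Fintype.card_fin, Finset.card_pair (Ne.symm hx)]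
    omega
  have e0 : MulAction.toPermHom K (orbit K x0) h = subtypePerm (h : Perm (Fin 8)) hinv := by
    ext y
    rfl
  have e1 : rho K x0 h = (orbEquiv K x0).permCongr (subtypePerm (h : Perm (Fin 8)) hinv) := by
    rw [← e0]
    rfl
  rw [e1, sign_permCongr, sign_subtypePerm _ _ h2]

end Cfsg.Agent.Lib.H69G4RedS
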