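import Mathlib
import Cfsg.Agent.Lib.Helper69G4Defs

set_option autoImplicit false
set_option linter.unusedVariables false
set_option linter.unusedSectionVars false

namespace Cfsg.Agent.Lib.H69G4RedT

open Cfsg Cfsg.Agent.Lib.Helper69G4Defs Equiv Equiv.Perm MulAction

/-- `rho_apply`: for `a b : Fin k` write `a = orbEquiv y`, `b = orbEquiv y'`; `K` is transitive on the orbit
(`MulAction.orbit.isPretransitive`-type instance / `MulAction.exists_smul_eq`). -/
theorem range_transitive (K : Subgroup (Perm (Fin 8))) (x0 : Fin 8) :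
    IsPretransitive (rho K x0).range (Fin (Nat.card (orbit K x0))) := by
  constructor
  intro a b
  obtain ⟨y, rfl⟩ := (orbEquiv K x0).surjective a
  obtain ⟨y', rfl⟩ := (orbEquiv K x0).surjective b
  obtain ⟨h, hh⟩ := MulAction.exists_smul_eq K y y'
  refine ⟨⟨rho K x0 h, ⟨h, rfl⟩⟩, ?_⟩
  change rho K x0 h (orbEquiv K x0 y) = _
  rw [rho_apply, hh]

/-- the support of `c` is the `zpowers c`-orbit of `x0` (`IsCycle.sameCycle`), contained in the `K`-orbit; `Nat.card (Fin 8) = 8`. -/
theorem card_orbit_bounds (K : Subgroup (Perm (Fin 8))) (c : Perm (Fin 8)) (hcK : c ∈ K)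
    (hc : c.IsCycle) (hc5 : c.support.card = 5) (x0 : Fin 8) (hx0 : x0 ∈ c.support) :
    5 ≤ Nat.card (orbit K x0) ∧ Nat.card (orbit K x0) ≤ 8 := by
  classical
  constructor
  · have hsub : (c.support : Set (Fin 8)) ⊆ orbit K x0 := by
      intro y hy
      have hx0' : c x0 ≠ x0 := Equiv.Perm.mem_support.1 hx0
      have hy' : c y ≠ y := Equiv.Perm.mem_support.1 hy
      obtain ⟨i, hi⟩ := hc.sameCycle hx0' hy'
      exact ⟨⟨c ^ i, K.zpow_mem hcK i⟩, hi⟩
    have h1 : Nat.card (c.support : Set (Fin 8)) ≤ Nat.card (orbit K x0) :=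
      Nat.card_mono (Set.toFinite _) hsub
    rw [Nat.card_coe_set_eq, Set.ncard_coe_finset, hc5] at h1
    exact h1
  · have h1 : Nat.card (orbit K x0) ≤ Nat.card (Fin 8) :=
      Nat.card_le_card_of_injective _ Subtype.val_injective
    simpa using h1

end Cfsg.Agent.Lib.H69G4RedT
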