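import Mathlib
import Cfsg.Agent.Lib.Helper69G4Defs
import Cfsg.Agent.Lib.H69G4Solv
import Cfsg.Agent.Lib.H69G4Ord
import Cfsg.Agent.S0494

set_option autoImplicit false
set_option linter.unusedVariables false
set_option linter.unusedSectionVars false

namespace Cfsg.Agent.Lib.H69G4Sixty

open Cfsg Cfsg.Agent.Lib.Helper69G4Defs Equiv Equiv.Perm MulAction

/-- `CF` and order 60 give `A_5`. -/
theorem equiv_A5 {G : Type*} [Group G] (h : CF G) (hc : Nat.card G = 60) :
    Nonempty (G ≃* alternatingGroup (Fin 5)) := by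
  have hfin : Finite G := Nat.finite_of_card_ne_zero (by omega)
  have hnt : Nontrivial G := by
    rw [← Finite.one_lt_card_iff_nontrivial, hc]; norm_num
  have hs : IsSimpleGroup G := by
    refine ⟨fun N hN => ?_⟩
    by_cases hT : N = ⊤
    · exact Or.inr hT
    left
    apply Cfsg.Agent.Lib.H69G4Solv.normal_solvable h N hN
    have hmul := N.card_mul_index
    rw [hc] at hmul
    have hi1 : N.index ≠ 1 := fun h1 => hT (Subgroup.index_eq_one.1 h1)
    have key : ∀ x y : ℕ, x * y = 60 → y ≠ 1 →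
        (x = 30 ∨ x ∣ 2 ^ 2 * 3 ^ 1 ∨ x ∣ 2 ^ 2 * 5 ^ 1 ∨ x ∣ 3 ^ 1 * 5 ^ 1) := by
      intro x y hxy hy
      have hx60 : x ∣ 60 := Dvd.intro _ hxy
      have hxle : x ≤ 60 := Nat.le_of_dvd (by norm_num) hx60
      interval_cases x <;> first | omega | (revert hx60; decide) | decide
    rcases key _ _ hmul hi1 with hK | hK | hK | hK
    · exact Cfsg.Agent.Lib.H69G4Ord.solvable_30 hK
    · exact Cfsg.Agent.Lib.H69G4Ord.solvable_of_dvd 2 3 2 1 Nat.prime_two Nat.prime_three hK
    · exact Cfsg.Agent.Lib.H69G4Ord.solvable_of_dvd 2 5 2 1 Nat.prime_two Nat.prime_five hK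
    · exact Cfsg.Agent.Lib.H69G4Ord.solvable_of_dvd 3 5 1 1 Nat.prime_three Nat.prime_five hK
  exact Cfsg.Agent.S0494.result hc

end Cfsg.Agent.Lib.H69G4Sixty
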