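import Mathlib
import Cfsg.Agent.Lib.Helper69G4Defs
import Cfsg.Agent.Lib.H69G4Solv
import Cfsg.Agent.Lib.H69G4Ord
import Cfsg.Agent.Lib.H69G4AltIdx
import Cfsg.Agent.Lib.H69G4AltTop

set_option autoImplicit false
set_option linter.unusedVariables false
set_option linter.unusedSectionVars false

namespace Cfsg.Agent.Lib.H69G4T5

open Cfsg Cfsg.Agent.Lib.Helper69G4Defs Equiv Equiv.Perm MulAction

theorem t5 (K : Subgroup (Perm (Fin 5))) (hcf : CF K) (h5 : 5 ∣ Nat.card K) :
    Nonempty (K ≃* alternatingGroup (Fin 5)) ∨ Nonempty (K ≃* Perm (Fin 5)) := by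
  have hA : Nat.card (alternatingGroup (Fin 5)) = 60 := by
    have := nat_card_alternatingGroup (α := Fin 5)
    rw [this]
    simp [Nat.factorial]
  have h5L : 5 ∣ Nat.card ↥(K ⊓ alternatingGroup (Fin 5)) := by
    rcases H69G4AltTop.card_inf_alt K with h | h
    · rwa [h] at h5
    · rw [h] at h5
      exact (Nat.Coprime.dvd_mul_left (by norm_num)).1 h5
  rcases H69G4AltIdx.alt_index (le_refl 5) (K ⊓ alternatingGroup (Fin 5)) inf_le_right with h | h
  · have hle : alternatingGroup (Fin 5) ≤ K := by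
      rw [← h]; exact inf_le_left
    rcases H69G4AltTop.eq_of_alt_le (by norm_num) K hle with h' | h'
    · exact Or.inl ⟨MulEquiv.subgroupCongr h'⟩
    · exact Or.inr ⟨(MulEquiv.subgroupCongr h').trans Subgroup.topEquiv⟩
  · exfalso
    rw [hA] at h
    have hd : Nat.card ↥(K ⊓ alternatingGroup (Fin 5)) ∣ 60 := by
      rw [← hA]
      exact Subgroup.card_dvd_of_le inf_le_right
    have hd2 : Nat.card ↥(K ⊓ alternatingGroup (Fin 5)) ∣ 2 ^ 1 * 5 ^ 1 := by
      obtain ⟨c, hc⟩ : ∃ c, c = Nat.card ↥(K ⊓ alternatingGroup (Fin 5)) := ⟨_, rfl⟩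
      rw [← hc] at h hd h5L ⊢
      have hc12 : c ≤ 12 := by omega
      interval_cases c <;> omega
    have hs : Group.IsSolvable ((K ⊓ alternatingGroup (Fin 5)).subgroupOf K) := by
      apply H69G4Ord.solvable_of_dvd 2 5 1 1 (by norm_num) (by norm_num)
      rw [H69G4AltTop.card_subgroupOf_inf_alt]
      exact hd2
    have hbot := H69G4Solv.normal_solvable hcf _ (H69G4AltTop.normal_inf_alt K) hs
    have h1 := H69G4AltTop.card_subgroupOf_inf_alt K
    rw [hbot, Subgroup.card_bot] at h1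
    rw [← h1] at h5L
    omega

end Cfsg.Agent.Lib.H69G4T5
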