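import Mathlib
import Cfsg.Agent.Lib.Helper98SymD

set_option autoImplicit false

namespace Cfsg.Agent.Lib.Helper98SymE

open Equiv Equiv.Perm Cfsg.Agent.Lib.Helper98Perm Cfsg.Agent.Lib.Helper98Sym
  Cfsg.Agent.Lib.Helper98SymB Cfsg.Agent.Lib.Helper98SymC Cfsg.Agent.Lib.Helper98SymD

theorem stabilizer_injective {β : Type*} [Fintype β] [DecidableEq β] (h3 : 3 ≤ Fintype.card β)
    {x y : β} (h : MulAction.stabilizer (Perm β) x = MulAction.stabilizer (Perm β) y) : x = y := by
  by_contra hxy
  obtain ⟨c₁, c₂, hc₁, hc₂, hc₁₂⟩ := exists_two_ne h3 x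
  obtain ⟨z, hzx, hzy⟩ : ∃ z, z ≠ x ∧ z ≠ y := by
    by_cases h1 : c₁ = y
    · exact ⟨c₂, hc₂, fun h2 => hc₁₂ (h1.trans h2.symm)⟩
    · exact ⟨c₁, hc₁, h1⟩
  have h1 : swap y z ∈ MulAction.stabilizer (Perm β) x := by
    rw [MulAction.mem_stabilizer_iff, Perm.smul_def]
    exact swap_apply_of_ne_of_ne hxy hzx.symm
  rw [h, MulAction.mem_stabilizer_iff, Perm.smul_def, swap_apply_left] at h1
  exact hzy h1

theorem stabilizer_equiv {β : Type*} [Fintype β] [DecidableEq β] {n : ℕ}
    (hn : Fintype.card β = n + 1) (b : β) :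
    Nonempty (MulAction.stabilizer (Perm β) b ≃* Perm (Fin n)) := by
  have hrange : (ofSubtype : Perm {x : β // x ≠ b} →* Perm β).range
      = MulAction.stabilizer (Perm β) b := by
    ext g
    rw [mem_range_ofSubtype_iff, MulAction.mem_stabilizer_iff, Perm.smul_def]
    constructor
    · intro h
      by_contra hne
      have : b ∈ (g.support : Set β) := by simpa using hne
      exact (h this) rfl
    · intro h x hx hxb
      have hx' : g x ≠ x := by simpa using hx
      exact hx' (by rw [hxb]; exact h)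
  have hcard : Fintype.card {x : β // x ≠ b} = n := by
    have := Fintype.card_subtype_compl (fun x => x = b)
    simp only [Fintype.card_subtype_eq] at this
    rw [this, hn]; rfl
  exact ⟨((MulEquiv.subgroupCongr hrange).symm.trans
    (MonoidHom.ofInjective ofSubtype_injective).symm).trans
    (Fintype.equivFinOfCardEq hcard).permCongrHom⟩

variable {Ω : Type*} [Fintype Ω] [DecidableEq Ω]

theorem equiv_of_index (h5 : 5 ≤ Fintype.card Ω) {n : ℕ} (hn : Fintype.card Ω = n + 1)
    {H : Subgroup (Perm Ω)} (hH : H.index = Fintype.card Ω) :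
    Nonempty (H ≃* Perm (Fin n)) := by
  classical
  have : Fintype (Perm Ω ⧸ H) := Fintype.ofFinite _
  have hQ : Fintype.card (Perm Ω ⧸ H) = n + 1 := by
    rw [← hn, ← hH, Subgroup.index, Nat.card_eq_fintype_card]
  obtain ⟨f⟩ := stabilizer_equiv hQ ((1 : Perm Ω) : Perm Ω ⧸ H)
  have h1 := comap_cosetEquiv h5 hH 1
  have h2 : H.map (MulAut.conj (1 : Perm Ω)).toMonoidHom = H := by
    ext x; simp
  rw [h2] at h1
  have h3 : H.map ((cosetEquiv h5 hH : Perm Ω ≃* Perm (Perm Ω ⧸ H)) : Perm Ω →* _)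
      = MulAction.stabilizer (Perm (Perm Ω ⧸ H)) ((1 : Perm Ω) : Perm Ω ⧸ H) := by
    refine (congrArg (Subgroup.map ((cosetEquiv h5 hH : Perm Ω ≃* Perm (Perm Ω ⧸ H)) :
      Perm Ω →* Perm (Perm Ω ⧸ H))) h1.symm).trans ?_
    exact Subgroup.map_comap_eq_self_of_surjective (cosetEquiv h5 hH).surjective _
  exact ⟨((cosetEquiv h5 hH).subgroupMap H).trans ((MulEquiv.subgroupCongr h3).trans f)⟩

theorem card_index_six (h6 : Fintype.card Ω = 6) :
    Nat.card {H : Subgroup (Perm Ω) // H.index = 6} = 12 := by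
  classical
  obtain ⟨H₂, hH₂, h₂⟩ := exists_exotic h6
  have h5 : 5 ≤ Fintype.card Ω := by omega
  have hH₂' : H₂.index = Fintype.card Ω := by rw [hH₂, h6]
  have : Fintype (Perm Ω ⧸ H₂) := Fintype.ofFinite _
  have hQ : Fintype.card (Perm Ω ⧸ H₂) = 6 := by
    rw [← hH₂, Subgroup.index, Nat.card_eq_fintype_card]
  let F : Ω ⊕ (Perm Ω ⧸ H₂) → {H : Subgroup (Perm Ω) // H.index = 6} := fun s =>
    match s with
    | Sum.inl x => ⟨MulAction.stabilizer (Perm Ω) x, by
        rw [MulAction.index_stabilizer_of_transitive, Nat.card_eq_fintype_card, h6]⟩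
    | Sum.inr q => ⟨(MulAction.stabilizer (Perm (Perm Ω ⧸ H₂)) q).comap
        (cosetEquiv h5 hH₂').toMonoidHom, by
        rw [Subgroup.index_comap_of_surjective (f := (cosetEquiv h5 hH₂').toMonoidHom) _
            (cosetEquiv h5 hH₂').surjective,
          MulAction.index_stabilizer_of_transitive, Nat.card_eq_fintype_card, hQ]⟩
  have hF : Function.Bijective F := by
    constructor
    · rintro (x | q) (y | r) h
      · have h1 : MulAction.stabilizer (Perm Ω) x = MulAction.stabilizer (Perm Ω) y :=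
          congrArg Subtype.val h
        rw [stabilizer_injective (by omega) h1]
      · exfalso
        obtain ⟨g, rfl⟩ := QuotientGroup.mk_surjective r
        have h1 : MulAction.stabilizer (Perm Ω) x =
          (MulAction.stabilizer (Perm (Perm Ω ⧸ H₂)) (g : Perm Ω ⧸ H₂)).comap
            (cosetEquiv h5 hH₂').toMonoidHom := congrArg Subtype.val h
        rw [comap_cosetEquiv] at h1
        exact map_conj_ne_stabilizer h₂ g x h1.symm
      · exfalso
        obtain ⟨g, rfl⟩ := QuotientGroup.mk_surjective q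
        have h1 : (MulAction.stabilizer (Perm (Perm Ω ⧸ H₂)) (g : Perm Ω ⧸ H₂)).comap
            (cosetEquiv h5 hH₂').toMonoidHom = MulAction.stabilizer (Perm Ω) y :=
          congrArg Subtype.val h
        rw [comap_cosetEquiv] at h1
        exact map_conj_ne_stabilizer h₂ g y h1
      · have h1 : (MulAction.stabilizer (Perm (Perm Ω ⧸ H₂)) q).comap
            (cosetEquiv h5 hH₂').toMonoidHom =
            (MulAction.stabilizer (Perm (Perm Ω ⧸ H₂)) r).comap
            (cosetEquiv h5 hH₂').toMonoidHom := congrArg Subtype.val h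
        have h2 := Subgroup.comap_injective (f := (cosetEquiv h5 hH₂').toMonoidHom)
          (cosetEquiv h5 hH₂').surjective h1
        rw [stabilizer_injective (by omega) h2]
    · rintro ⟨H, hH⟩
      rcases classification h6 hH₂ h₂ H hH with ⟨x, rfl⟩ | ⟨g, hg⟩
      · exact ⟨Sum.inl x, rfl⟩
      · refine ⟨Sum.inr (g : Perm Ω ⧸ H₂), ?_⟩
        apply Subtype.ext
        show (MulAction.stabilizer (Perm (Perm Ω ⧸ H₂)) (g : Perm Ω ⧸ H₂)).comap
            (cosetEquiv h5 hH₂').toMonoidHom = H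
        rw [comap_cosetEquiv, hg]
  rw [← Nat.card_congr (Equiv.ofBijective F hF), Nat.card_sum, Nat.card_eq_fintype_card,
    Nat.card_eq_fintype_card, h6, hQ]

end Cfsg.Agent.Lib.Helper98SymE
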