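import Mathlib
import Cfsg.Agent.Lib.Helper69G4Defs
import Cfsg.Agent.Lib.H69G4Solv
import Cfsg.Agent.Lib.H69G4Ord
import Cfsg.Agent.Lib.H69G4AltIdx
import Cfsg.Agent.Lib.H69G4AltTop
import Cfsg.Agent.Lib.H69G4Sixty
import Cfsg.Agent.S5945

set_option autoImplicit false
set_option linter.unusedVariables false
set_option linter.unusedSectionVars false

namespace Cfsg.Agent.Lib.H69G4T6

open Cfsg Cfsg.Agent.Lib.Helper69G4Defs Equiv Equiv.Perm MulAction

/-- `6 ∣ card K` (transitive: orbit-stabiliser) and `5 ∣ card K`, so `30 ∣ card K`.  `L := K ⊓ A_6`, `15 ∣ card L`, `card L ∣ 360`.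
`alt_index`: `L = A_6` (then `K = A_6` or `⊤` by `eq_of_alt_le`) or `6 * card L ≤ 360`, so `card L ∈ {15, 30, 45, 60}`.
15, 45: `solvable_of_dvd 3 5 2 1`; 30: `solvable_30`; then `L.subgroupOf K` is normal solvable nontrivial: contradiction with
`normal_solvable`.  `card L = 60`: `card K = 60` (`equiv_A5`) or `card K = 120`, i.e. `K.index = 6`
(`Subgroup.card_mul_index`, `Nat.card_perm`), and `Cfsg.Agent.S5945.result.2.1 K`. -/
theorem t6 (K : Subgroup (Perm (Fin 6))) (hcf : CF K) (htr : IsPretransitive K (Fin 6))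
    (h5 : 5 ∣ Nat.card K) :
    Nonempty (K ≃* alternatingGroup (Fin 5)) ∨ Nonempty (K ≃* Perm (Fin 5)) ∨
      Nonempty (K ≃* alternatingGroup (Fin 6)) ∨ Nonempty (K ≃* Perm (Fin 6)) := by
  classical
  have h6 : 6 ∣ Nat.card K := by
    have h := MulAction.index_stabilizer_of_transitive K (0 : Fin 6)
    have h' := Subgroup.index_dvd_card (MulAction.stabilizer K (0 : Fin 6))
    rw [h] at h'
    simpa using h'
  have h30 : 30 ∣ Nat.card K := by
    have : Nat.Coprime 5 6 := by norm_num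
    exact this.mul_dvd_of_dvd_of_dvd h5 h6
  have hA : Nat.card (alternatingGroup (Fin 6)) = 360 := by
    rw [nat_card_alternatingGroup]
    simp [Nat.factorial]
  have hS : Nat.card (Perm (Fin 6)) = 720 := by
    rw [Nat.card_perm]
    simp [Nat.factorial]
  obtain ⟨L, hL⟩ : ∃ L, L = K ⊓ alternatingGroup (Fin 6) := ⟨_, rfl⟩
  have hKL := Cfsg.Agent.Lib.H69G4AltTop.card_inf_alt K
  have hN := Cfsg.Agent.Lib.H69G4AltTop.normal_inf_alt K
  have hNc := Cfsg.Agent.Lib.H69G4AltTop.card_subgroupOf_inf_alt K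
  rw [← hL] at hKL hN hNc
  have hLA : L ≤ alternatingGroup (Fin 6) := by rw [hL]; exact inf_le_right
  have h15 : 15 ∣ Nat.card L := by
    rcases hKL with h | h
    · rw [h] at h30; exact Dvd.dvd.trans (by norm_num) h30
    · rw [h] at h30
      exact Nat.dvd_of_mul_dvd_mul_left (by norm_num : 0 < 2) (by simpa using h30)
  rcases Cfsg.Agent.Lib.H69G4AltIdx.alt_index (by norm_num : 5 ≤ 6) L hLA with h | h
  · have hle : alternatingGroup (Fin 6) ≤ K := by rw [← h, hL]; exact inf_le_left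
    rcases Cfsg.Agent.Lib.H69G4AltTop.eq_of_alt_le (by norm_num) K hle with h' | h'
    · exact Or.inr (Or.inr (Or.inl ⟨MulEquiv.subgroupCongr h'⟩))
    · exact Or.inr (Or.inr (Or.inr ⟨(MulEquiv.subgroupCongr h').trans Subgroup.topEquiv⟩))
  · rw [hA] at h
    obtain ⟨c, hc⟩ := h15
    have hpos : 0 < Nat.card L := Nat.card_pos
    have hsolv : Group.IsSolvable (L.subgroupOf K) → False := by
      intro hs
      have := Cfsg.Agent.Lib.H69G4Solv.normal_solvable hcf _ hN hs
      rw [this, Subgroup.card_bot] at hNc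
      omega
    have hc4 : c = 1 ∨ c = 2 ∨ c = 3 ∨ c = 4 := by omega
    rcases hc4 with rfl | rfl | rfl | rfl
    · exfalso
      apply hsolv
      apply Cfsg.Agent.Lib.H69G4Ord.solvable_of_dvd 3 5 2 1 (by norm_num) (by norm_num)
      rw [hNc, hc]; norm_num
    · exfalso
      apply hsolv
      apply Cfsg.Agent.Lib.H69G4Ord.solvable_30
      rw [hNc, hc]
    · exfalso
      apply hsolv
      apply Cfsg.Agent.Lib.H69G4Ord.solvable_of_dvd 3 5 2 1 (by norm_num) (by norm_num)
      rw [hNc, hc]; norm_num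
    · rcases hKL with h' | h'
      · exact Or.inl (Cfsg.Agent.Lib.H69G4Sixty.equiv_A5 hcf (by rw [h', hc]))
      · refine Or.inr (Or.inl (Cfsg.Agent.S5945.result.2.1 K ?_))
        have := Subgroup.card_mul_index K
        rw [hS, h', hc] at this
        omega

end Cfsg.Agent.Lib.H69G4T6
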