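import Mathlib
import Cfsg.Agent.Lib.Helper69G4Defs
import Cfsg.Agent.Lib.H69G4AltIdx
import Cfsg.Agent.Lib.H69G4Cyc5
import Cfsg.Agent.Lib.H69G4Invol
import Cfsg.Agent.Lib.H69G4Multi
import Cfsg.Agent.Lib.H69G4CardFix

set_option autoImplicit false
set_option linter.unusedVariables false
set_option linter.unusedSectionVars false

namespace Cfsg.Agent.Lib.H69G4T7

open Cfsg Cfsg.Agent.Lib.Helper69G4Defs Equiv Equiv.Perm MulAction

/-- Cauchy: `c ∈ K` of order 5, a 5-cycle (`isCycle_of_orderOf_five`).  `IsPreprimitive.of_prime_card`, `multi`: 3-fold transitive.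
`card_fix`: `card K * 24 = 5040 * card (fixingSubgroup K s)` for every 3-set `s`, so `210 ∣ card K`.
`alt_index`: `K = A_7` or `7 * card K ≤ 2520`; in the second case `card K = 210` and all these fixing subgroups are trivial.
Cauchy: `t ∈ K` of order 2, even since `K ≤ A_7`, `support.card ≤ 7`, so `support.card = 4` (`even_invol`); `s := (t.support)ᶜ` has 3 elements and
`t ∈ fixingSubgroup K s`, so `t = 1`: contradiction. -/
theorem t7 (K : Subgroup (Perm (Fin 7))) (hK : K ≤ alternatingGroup (Fin 7))
    (htr : IsPretransitive K (Fin 7)) (h5 : 5 ∣ Nat.card K) : K = alternatingGroup (Fin 7) := by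
  have : Fact (Nat.Prime 5) := ⟨by norm_num⟩
  have : Fact (Nat.Prime 2) := ⟨Nat.prime_two⟩
  obtain ⟨c, hc⟩ := exists_prime_orderOf_dvd_card' (G := K) 5 h5
  have hc' : orderOf (c : Perm (Fin 7)) = 5 := by rw [Subgroup.orderOf_coe]; exact hc
  obtain ⟨hcyc, hsupp⟩ :=
    Cfsg.Agent.Lib.H69G4Cyc5.isCycle_of_orderOf_five (by norm_num) (c : Perm (Fin 7)) hc'
  have hprim : IsPreprimitive K (Fin 7) := IsPreprimitive.of_prime_card (by
    rw [Nat.card_eq_fintype_card, Fintype.card_fin]; norm_num)
  have hmulti : IsMultiplyPretransitive K (Fin 7) 3 :=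
    Cfsg.Agent.Lib.H69G4Multi.multi (le_refl 7) K hprim c c.2 hcyc hsupp
  have hfix : ∀ s : Set (Fin 7), s.ncard = 3 →
      Nat.card K * 24 = 5040 * Nat.card (fixingSubgroup K s) := by
    intro s hs
    have := Cfsg.Agent.Lib.H69G4CardFix.card_fix K hmulti s hs
    simpa [Nat.factorial] using this
  rcases Cfsg.Agent.Lib.H69G4AltIdx.alt_index (by norm_num) K hK with h | h
  · exact h
  · exfalso
    have hA : Nat.card (alternatingGroup (Fin 7)) = 2520 := by
      rw [nat_card_alternatingGroup]
      simp [Nat.factorial]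
    rw [hA] at h
    have hfix1 : ∀ s : Set (Fin 7), s.ncard = 3 → Nat.card (fixingSubgroup K s) = 1 := by
      intro s hs
      have h1 := hfix s hs
      have h2 : 0 < Nat.card (fixingSubgroup K s) := Nat.card_pos
      omega
    have hcard : Nat.card K = 210 := by
      have hs0 : (((({0, 1, 2} : Finset (Fin 7))) : Set (Fin 7))).ncard = 3 := by
        rw [Set.ncard_coe_finset]; decide
      have h1 := hfix _ hs0
      rw [hfix1 _ hs0] at h1
      omega
    obtain ⟨t, ht⟩ := exists_prime_orderOf_dvd_card' (G := K) 2 (by rw [hcard]; norm_num)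
    have ht' : orderOf (t : Perm (Fin 7)) = 2 := by rw [Subgroup.orderOf_coe]; exact ht
    have hsign : sign (t : Perm (Fin 7)) = 1 := mem_alternatingGroup.1 (hK t.2)
    have hle : (t : Perm (Fin 7)).support.card ≤ 7 := by
      calc _ ≤ Fintype.card (Fin 7) := Finset.card_le_univ _
        _ = 7 := by simp
    have h4 := Cfsg.Agent.Lib.H69G4Invol.even_invol (t : Perm (Fin 7)) ht' hsign hle
    have hs : ((((t : Perm (Fin 7)).supportᶜ : Finset (Fin 7)) : Set (Fin 7))).ncard = 3 := by
      rw [Set.ncard_coe_finset, Finset.card_compl, h4]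
      simp
    have htmem : t ∈ fixingSubgroup K ((((t : Perm (Fin 7)).supportᶜ : Finset (Fin 7)) : Set (Fin 7))) := by
      rw [mem_fixingSubgroup_iff]
      intro y hy
      have hy' : y ∉ (t : Perm (Fin 7)).support := by
        simpa using hy
      rw [Subgroup.smul_def, Perm.smul_def]
      exact notMem_support.1 hy'
    have h1 := hfix1 _ hs
    rw [Subgroup.card_eq_one] at h1
    rw [h1, Subgroup.mem_bot] at htmem
    rw [htmem] at ht
    simp at ht

end Cfsg.Agent.Lib.H69G4T7
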