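import Mathlib
import Cfsg.Agent.Lib.Helper69G4Defs
import Cfsg.Agent.Lib.H69G4AltIdx
import Cfsg.Agent.Lib.H69G4Cyc5
import Cfsg.Agent.Lib.H69G4Invol
import Cfsg.Agent.Lib.H69G4Multi
import Cfsg.Agent.Lib.H69G4CardFix
import Cfsg.Agent.Lib.H69G4Prim8

set_option autoImplicit false
set_option linter.unusedVariables false
set_option linter.unusedSectionVars false

namespace Cfsg.Agent.Lib.H69G4T8

open Cfsg Cfsg.Agent.Lib.Helper69G4Defs Equiv Equiv.Perm MulAction

/-- As `t7`: `prim8`, `multi`: 4-fold transitive; `card K * 24 = 40320 * card (fixingSubgroup K s)` for every 4-set `s`, so `1680 ∣ card K`.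
`alt_index`: `K = A_8` or `8 * card K ≤ 20160`; then `card K = 1680` and the fixing subgroups of 4-sets are trivial.
The stabiliser of the point `0` has order `1680 / 8 = 210` (orbit-stabiliser), even: it contains `t` of order 2 (Cauchy), `t` is even and fixes `0`, so
`support.card ≤ 7`, `= 4` (`even_invol`); `s := (t.support)ᶜ` has 4 elements, `t ∈ fixingSubgroup K s`, `t = 1`: contradiction. -/
theorem t8 (K : Subgroup (Perm (Fin 8))) (hK : K ≤ alternatingGroup (Fin 8))
    (htr : IsPretransitive K (Fin 8)) (h5 : 5 ∣ Nat.card K) : K = alternatingGroup (Fin 8) := by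
  have : Fact (Nat.Prime 5) := ⟨by norm_num⟩
  have : Fact (Nat.Prime 2) := ⟨Nat.prime_two⟩
  obtain ⟨c, hc⟩ := exists_prime_orderOf_dvd_card' (G := K) 5 h5
  have hc' : orderOf (c : Perm (Fin 8)) = 5 := by rw [Subgroup.orderOf_coe]; exact hc
  obtain ⟨hcyc, hsupp⟩ :=
    Cfsg.Agent.Lib.H69G4Cyc5.isCycle_of_orderOf_five (by norm_num) (c : Perm (Fin 8)) hc'
  have hprim : IsPreprimitive K (Fin 8) :=
    Cfsg.Agent.Lib.H69G4Prim8.prim8 K htr c c.2 hcyc hsupp
  have hmulti : IsMultiplyPretransitive K (Fin 8) 4 :=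
    Cfsg.Agent.Lib.H69G4Multi.multi (by norm_num) K hprim c c.2 hcyc hsupp
  have hfix : ∀ s : Set (Fin 8), s.ncard = 4 →
      Nat.card K * 24 = 40320 * Nat.card (fixingSubgroup K s) := by
    intro s hs
    have := Cfsg.Agent.Lib.H69G4CardFix.card_fix K hmulti s hs
    simpa [Nat.factorial] using this
  rcases Cfsg.Agent.Lib.H69G4AltIdx.alt_index (by norm_num) K hK with h | h
  · exact h
  · exfalso
    have hA : Nat.card (alternatingGroup (Fin 8)) = 20160 := by
      rw [nat_card_alternatingGroup]
      simp [Nat.factorial]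
    rw [hA] at h
    have hfix1 : ∀ s : Set (Fin 8), s.ncard = 4 → Nat.card (fixingSubgroup K s) = 1 := by
      intro s hs
      have h1 := hfix s hs
      have h2 : 0 < Nat.card (fixingSubgroup K s) := Nat.card_pos
      omega
    have hcard : Nat.card K = 1680 := by
      have hs0 : (((({0, 1, 2, 3} : Finset (Fin 8))) : Set (Fin 8))).ncard = 4 := by
        rw [Set.ncard_coe_finset]; decide
      have h1 := hfix _ hs0
      rw [hfix1 _ hs0] at h1
      omega
    have hstab : Nat.card (stabilizer K (0 : Fin 8)) = 210 := by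
      have h1 := (stabilizer K (0 : Fin 8)).card_mul_index
      have h8 : Nat.card (Fin 8) = 8 := by simp
      rw [MulAction.index_stabilizer_of_transitive, hcard, h8] at h1
      omega
    obtain ⟨t0, ht0⟩ := exists_prime_orderOf_dvd_card' (G := stabilizer K (0 : Fin 8)) 2
      (by rw [hstab]; norm_num)
    obtain ⟨t, htstab, ht⟩ : ∃ t : K, t ∈ stabilizer K (0 : Fin 8) ∧ orderOf t = 2 :=
      ⟨t0, t0.2, by rw [Subgroup.orderOf_coe]; exact ht0⟩
    have ht' : orderOf (t : Perm (Fin 8)) = 2 := by rw [Subgroup.orderOf_coe]; exact ht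
    have hsign : sign (t : Perm (Fin 8)) = 1 := mem_alternatingGroup.1 (hK t.2)
    have h0 : (0 : Fin 8) ∉ (t : Perm (Fin 8)).support := by
      rw [notMem_support]
      have := mem_stabilizer_iff.1 htstab
      rwa [Subgroup.smul_def, Perm.smul_def] at this
    have hle : (t : Perm (Fin 8)).support.card ≤ 7 := by
      calc _ ≤ (Finset.univ.erase (0 : Fin 8)).card := Finset.card_le_card (by
            intro x hx
            rw [Finset.mem_erase]
            exact ⟨fun h => h0 (h ▸ hx), Finset.mem_univ _⟩)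
        _ = 7 := by simp
    have h4 := Cfsg.Agent.Lib.H69G4Invol.even_invol (t : Perm (Fin 8)) ht' hsign hle
    have hs : ((((t : Perm (Fin 8)).supportᶜ : Finset (Fin 8)) : Set (Fin 8))).ncard = 4 := by
      rw [Set.ncard_coe_finset, Finset.card_compl, h4]
      simp
    have htmem : t ∈ fixingSubgroup K ((((t : Perm (Fin 8)).supportᶜ : Finset (Fin 8)) : Set (Fin 8))) := by
      rw [mem_fixingSubgroup_iff]
      intro y hy
      have hy' : y ∉ (t : Perm (Fin 8)).support := by
        simpa using hy
      rw [Subgroup.smul_def, Perm.smul_def]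
      exact notMem_support.1 hy'
    have h1 := hfix1 _ hs
    rw [Subgroup.card_eq_one] at h1
    rw [h1, Subgroup.mem_bot] at htmem
    rw [htmem] at ht
    simp at ht

end Cfsg.Agent.Lib.H69G4T8
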