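import Mathlib

/-!
# Project FO (S4068): groups all of whose non-identity elements have prime order
-/

set_option autoImplicit false

namespace Cfsg.Agent.Lib.Helper71FO

/-- every non-identity element has prime order -/
def PO (X : Type*) [Group X] : Prop := ∀ x : X, x = 1 ∨ (orderOf x).Prime

theorem PO.subgroup {X : Type*} [Group X] (h : PO X) (K : Subgroup X) : PO ↥K := by
  intro x
  rcases h x.1 with h1 | h1
  · left; exact Subtype.ext h1
  · right; rwa [← Subgroup.orderOf_coe]

theorem PO.of_surjective {X Y : Type*} [Group X] [Group Y] (h : PO X) (f : X →* Y)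
    (hf : Function.Surjective f) : PO Y := by
  intro y
  obtain ⟨x, rfl⟩ := hf y
  rcases h x with h1 | h1
  · left; rw [h1, map_one]
  · have hd : orderOf (f x) ∣ orderOf x := orderOf_map_dvd f x
    rcases (Nat.dvd_prime h1).1 hd with h2 | h2
    · left; exact orderOf_eq_one_iff.1 h2
    · right; rw [h2]; exact h1

end Cfsg.Agent.Lib.Helper71FO
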