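import Mathlib
import Cfsg.Agent.Lib.Helper71FODefs
import Cfsg.Agent.S0144

/-!
# Project FO (S4068), piece `Orb`  (est. 60 min)
A non-solvable group with exactly four `Aut`-orbits has all non-identity elements of prime order.

SKETCH.  `P = (Nat.card G).primeFactors`.  If `P.card ≤ 2` then `Nat.card G = p^a * q^b` for primes `p q`
(`Nat.factorization_prod_pow_eq_self` / `Nat.prod_primeFactors_...`; cases `P = ∅, {p}, {p,q}`; pad with exponent 0), so `G` is solvable by `Cfsg.Agent.S0144.result`.  So `3 ≤ P.card`.
`ord : orbitRel.Quotient (MulAut G) G → ℕ` := `Quotient.lift orderOf` (an automorphism preserves `orderOf`: `MulEquiv.orderOf_eq`; `MulAut.smul_def`).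
`φ : Option P → Quotient`, `none ↦ ⟦1⟧`, `some p ↦ ⟦x_p⟧` with `orderOf x_p = p` (Cauchy `exists_prime_orderOf_dvd_card'`).  `ord ∘ φ` is injective (`1` is not prime), so `φ` is injective;
`card (Option P) = P.card + 1 ≥ 4 = card Quotient`, so `φ` is bijective (`Function.Injective.bijective_of_nat_card_le` / `Finite.injective_iff_surjective_of_equiv`-style).  Every `x` has `⟦x⟧ = φ o`, so `orderOf x = 1` or a prime.
-/

set_option autoImplicit false

namespace Cfsg.Agent.Lib.H71FoOrb

open Cfsg.Agent.Lib.Helper71FO

theorem po_of_four_orbits {G : Type*} [Group G] [Finite G] (hns : ¬ Group.IsSolvable G)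
    (h4 : Nat.card (MulAction.orbitRel.Quotient (MulAut G) G) = 4) : PO G := by
  classical
  have hn0 : Nat.card G ≠ 0 := Nat.card_pos.ne'
  have hprod : (Nat.card G).primeFactors.prod (fun p => p ^ (Nat.card G).factorization p)
      = Nat.card G := by
    have := Nat.prod_factorization_pow_eq_self hn0
    rwa [Finsupp.prod, Nat.support_factorization] at this
  have h3 : 3 ≤ (Nat.card G).primeFactors.card := by
    by_contra hcon
    apply hns
    have hle : (Nat.card G).primeFactors.card ≤ 2 := by omega
    rcases Nat.lt_or_ge (Nat.card G).primeFactors.card 1 with h0 | h1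
    · have h0' : (Nat.card G).primeFactors = ∅ := Finset.card_eq_zero.1 (by omega)
      rw [h0', Finset.prod_empty] at hprod
      exact Cfsg.Agent.S0144.result 2 2 0 0 Nat.prime_two Nat.prime_two (by rw [← hprod]; norm_num)
    · rcases Nat.lt_or_ge (Nat.card G).primeFactors.card 2 with h1' | h2
      · obtain ⟨p, hp⟩ := Finset.card_eq_one.1 (show (Nat.card G).primeFactors.card = 1 by omega)
        have hpp : p.Prime := Nat.prime_of_mem_primeFactors (by rw [hp]; simp)
        rw [hp, Finset.prod_singleton] at hprod
        exact Cfsg.Agent.S0144.result p p ((Nat.card G).factorization p) 0 hpp hpp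
          (by rw [pow_zero, mul_one]; exact hprod.symm)
      · obtain ⟨p, q, hpq, hp⟩ :=
          Finset.card_eq_two.1 (show (Nat.card G).primeFactors.card = 2 by omega)
        have hpp : p.Prime := Nat.prime_of_mem_primeFactors (by rw [hp]; simp)
        have hqq : q.Prime := Nat.prime_of_mem_primeFactors (by rw [hp]; simp)
        rw [hp, Finset.prod_pair hpq] at hprod
        exact Cfsg.Agent.S0144.result p q _ _ hpp hqq hprod.symm
  let ord : MulAction.orbitRel.Quotient (MulAut G) G → ℕ :=
    Quotient.lift (s := MulAction.orbitRel (MulAut G) G) orderOf (by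
      intro a b hab
      obtain ⟨φ, rfl⟩ : a ∈ MulAction.orbit (MulAut G) b := hab
      exact MulEquiv.orderOf_eq φ b)
  have hord : ∀ y : G, ord (Quotient.mk (MulAction.orbitRel (MulAut G) G) y) = orderOf y :=
    fun y => rfl
  letI : Fintype (MulAction.orbitRel.Quotient (MulAut G) G) := Fintype.ofFinite _
  have hS : (Finset.univ.image ord).card ≤ 4 := by
    refine (Finset.card_image_le).trans ?_
    rw [Finset.card_univ, ← Nat.card_eq_fintype_card, h4]
  intro x
  by_contra hcon
  push Not at hcon
  obtain ⟨hx1, hxp⟩ := hcon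
  have hm1 : orderOf x ≠ 1 := fun h => hx1 (orderOf_eq_one_iff.1 h)
  have hsub : insert 1 (insert (orderOf x) (Nat.card G).primeFactors) ⊆ Finset.univ.image ord := by
    intro k hk
    rw [Finset.mem_image]
    rcases Finset.mem_insert.1 hk with rfl | hk
    · exact ⟨_, Finset.mem_univ _, (hord 1).trans orderOf_one⟩
    rcases Finset.mem_insert.1 hk with rfl | hk
    · exact ⟨_, Finset.mem_univ _, hord x⟩
    · have hkp := Nat.prime_of_mem_primeFactors hk
      haveI : Fact k.Prime := ⟨hkp⟩
      obtain ⟨y, hy⟩ := exists_prime_orderOf_dvd_card' (G := G) k (Nat.dvd_of_mem_primeFactors hk)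
      exact ⟨_, Finset.mem_univ _, (hord y).trans hy⟩
  have hcard : (insert 1 (insert (orderOf x) (Nat.card G).primeFactors)).card
      = (Nat.card G).primeFactors.card + 2 := by
    rw [Finset.card_insert_of_notMem, Finset.card_insert_of_notMem]
    · intro hmem
      exact hxp (Nat.prime_of_mem_primeFactors hmem)
    · intro hmem
      rcases Finset.mem_insert.1 hmem with h | h
      · exact hm1 h.symm
      · exact Nat.not_prime_one (Nat.prime_of_mem_primeFactors h)
  have := Finset.card_le_card hsub
  omega

end Cfsg.Agent.Lib.H71FoOrb
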