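import Mathlib

/-!
# Project NCC (S3921), piece `Arith`  (PURE ARITHMETIC, est. 30-45 min)
An odd prime power of the form `2^k ± 1` is a prime or `9`.
-/

set_option autoImplicit false

namespace Cfsg.Agent.Lib.H71NccArith

private theorem eq_one_of_odd_dvd {c k : ℕ} (hc : Odd c) (hd : c ∣ 2 ^ k) : c = 1 := by
  have h1 : Nat.Coprime c 2 := Nat.Coprime.symm (Nat.coprime_two_left.2 hc)
  exact Nat.Coprime.eq_one_of_dvd (h1.pow_right k) hd

theorem prime_or_nine {p f k : ℕ} (hp : p.Prime) (hp2 : p ≠ 2) (hf : f ≠ 0)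
    (h : p ^ f = 2 ^ k + 1 ∨ p ^ f + 1 = 2 ^ k) : f = 1 ∨ p ^ f = 9 := by
  have hpodd : Odd p := hp.odd_of_ne_two hp2
  have hp3 : 3 ≤ p := by
    have := hp.two_le
    omega
  rcases Nat.even_or_odd' f with ⟨g, hg | hg⟩
  · -- `f = 2 g`
    have hg0 : g ≠ 0 := by
      rintro rfl
      exact hf (by rw [hg])
    obtain ⟨m, hm⟩ : ∃ m, m = p ^ g := ⟨_, rfl⟩
    have hmodd : Odd m := by rw [hm]; exact hpodd.pow
    have hm3 : 3 ≤ m := by
      rw [hm]
      calc 3 ≤ p := hp3
        _ = p ^ 1 := (pow_one p).symm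
        _ ≤ p ^ g := Nat.pow_le_pow_right (by omega) (by omega)
    have hpf : p ^ f = m * m := by rw [hg, hm, two_mul, pow_add]
    rw [hpf] at h ⊢
    obtain ⟨n, hn⟩ := hmodd
    rcases h with h | h
    · right
      -- `(m - 1) (m + 1) = 2 ^ k`, `m = 2 n + 1`: `4 n (n + 1) = 2 ^ k`
      have h1 : 2 ^ k = 4 * (n * (n + 1)) := by
        have : m * m = 4 * (n * (n + 1)) + 1 := by rw [hn]; ring
        omega
      have hn1 : 1 ≤ n := by omega
      -- one of `n`, `n + 1` is odd and divides `2 ^ k`
      rcases Nat.even_or_odd n with he | ho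
      · have ho' : Odd (n + 1) := he.add_one
        have hd : (n + 1) ∣ 2 ^ k := by rw [h1]; exact ⟨4 * n, by ring⟩
        have := eq_one_of_odd_dvd ho' hd
        omega
      · have hd : n ∣ 2 ^ k := by rw [h1]; exact ⟨4 * (n + 1), by ring⟩
        have hn' := eq_one_of_odd_dvd ho hd
        rw [hn, hn']
        norm_num
    · exfalso
      have h1 : 2 ^ k = 2 * (2 * (n * (n + 1)) + 1) := by
        rw [← h, hn]; ring
      have ho : Odd (2 * (n * (n + 1)) + 1) := ⟨n * (n + 1), rfl⟩
      have hd : (2 * (n * (n + 1)) + 1) ∣ 2 ^ k := by rw [h1]; exact ⟨2, by ring⟩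
      have := eq_one_of_odd_dvd ho hd
      have hn1 : 1 ≤ n := by omega
      have : 1 ≤ n * (n + 1) := Nat.mul_pos hn1 (by omega)
      omega
  · -- `f = 2 g + 1`
    left
    obtain ⟨T, hT⟩ : (p ^ 2 - 1) ∣ (p ^ 2) ^ g - 1 := by
      simpa using Nat.sub_dvd_pow_sub_pow (p ^ 2) 1 g
    have hX1 : 1 ≤ (p ^ 2) ^ g := Nat.one_le_pow _ _ (by positivity)
    have hp21 : 1 ≤ p ^ 2 := Nat.one_le_pow _ _ (by omega)
    have hX : (p ^ 2) ^ g = 1 + (p ^ 2 - 1) * T := by omega
    have hpf : p ^ f = p * (p ^ 2) ^ g := by rw [hg, ← pow_mul]; ring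
    obtain ⟨r, hr⟩ : ∃ r, p = r + 1 := ⟨p - 1, by omega⟩
    have hp2' : p ^ 2 - 1 = r * (r + 2) := by
      have : p ^ 2 = r * (r + 2) + 1 := by rw [hr]; ring
      omega
    have hT0 : T = 0 := by
      rcases h with h | h
      · -- `2 ^ k = (p - 1) (1 + p (p + 1) T)`
        have h1 : 2 ^ k = r * (1 + p * (p + 1) * T) := by
          have : p ^ f = r * (1 + p * (p + 1) * T) + 1 := by
            rw [hpf, hX, hp2', hr]; ring
          omega
        have hev : Even (p * (p + 1) * T) := by
          apply Even.mul_right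
          exact Nat.even_mul_succ_self p
        have ho : Odd (1 + p * (p + 1) * T) := by
          rw [add_comm]; exact hev.add_one
        have hd : (1 + p * (p + 1) * T) ∣ 2 ^ k := by rw [h1]; exact ⟨r, by ring⟩
        have h2 := eq_one_of_odd_dvd ho hd
        have h3 : p * (p + 1) * T = 0 := by omega
        rcases Nat.mul_eq_zero.1 h3 with h4 | h4
        · exfalso
          have : 0 < p * (p + 1) := by positivity
          omega
        · exact h4
      · have h1 : 2 ^ k = (p + 1) * (1 + r * p * T) := by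
          rw [← h, hpf, hX, hp2', hr]; ring
        have hev : Even (r * p * T) := by
          apply Even.mul_right
          rw [hr]
          exact Nat.even_mul_succ_self r
        have ho : Odd (1 + r * p * T) := by
          rw [add_comm]; exact hev.add_one
        have hd : (1 + r * p * T) ∣ 2 ^ k := by rw [h1]; exact ⟨p + 1, by ring⟩
        have h2 := eq_one_of_odd_dvd ho hd
        have h3 : r * p * T = 0 := by omega
        rcases Nat.mul_eq_zero.1 h3 with h4 | h4
        · exfalso
          have : 0 < r * p := Nat.mul_pos (by omega) (by omega)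
          omega
        · exact h4
    rw [hT0, mul_zero, add_zero] at hX
    have hg0 : g = 0 := by
      by_contra hne
      have : 1 < (p ^ 2) ^ g := Nat.one_lt_pow hne (by nlinarith)
      omega
    omega

end Cfsg.Agent.Lib.H71NccArith
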