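import Mathlib
import Cfsg.Agent.Lib.Helper6SolB2
import Cfsg.Agent.S0016

/-!
# Project NCC (S3921), piece `B2`
The 2-local part of `NCC` for `PSL₂(F)`, char `≠ 2`.  Tool: `Cfsg.Agent.Lib.Helper6Sol.klein_self_centralizing`.
-/

set_option autoImplicit false

namespace Cfsg.Agent.Lib.H71NccB2

local notation "PSL2" => Matrix.ProjectiveSpecialLinearGroup (Fin 2)

theorem eq_zpowers_of_card_two {G : Type*} [Group G] (H : Subgroup G) (h : Nat.card H = 2) :
    ∃ a : G, a ^ 2 = 1 ∧ a ≠ 1 ∧ H = Subgroup.zpowers a := by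
  haveI : Finite H := Nat.finite_of_card_ne_zero (by rw [h]; norm_num)
  haveI : Nontrivial H := Finite.one_lt_card_iff_nontrivial.1 (by rw [h]; norm_num)
  obtain ⟨a, ha⟩ := exists_ne (1 : H)
  have ha2 : a ^ 2 = 1 := by rw [← h]; exact pow_card_eq_one'
  have ha2' : (a : G) ^ 2 = 1 := by
    have := congrArg Subtype.val ha2
    simpa using this
  have ha1 : (a : G) ≠ 1 := fun h1 => ha (Subtype.ext h1)
  refine ⟨a, ha2', ha1, ?_⟩
  haveI : Fact (Nat.Prime 2) := ⟨Nat.prime_two⟩
  have ho : orderOf (a : G) = 2 := orderOf_eq_prime ha2' ha1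
  symm
  apply Subgroup.eq_of_le_of_card_ge
  · rw [Subgroup.zpowers_le]; exact a.2
  · rw [Nat.card_zpowers, ho, h]

theorem exists_two_involutions {R : Type*} [Group R] [Finite R] (hR : IsPGroup 2 R)
    (hcomm : ∀ x y : R, x * y = y * x) (hRc : ¬ IsCyclic R) :
    ∃ a b : R, a ^ 2 = 1 ∧ b ^ 2 = 1 ∧ a ≠ 1 ∧ b ≠ 1 ∧ a ≠ b := by
  by_contra hcon
  push_neg at hcon
  haveI : Fact (Nat.Prime 2) := ⟨Nat.prime_two⟩
  have huniq : ∀ H K : Subgroup R, Nat.card H = 2 → Nat.card K = 2 → H = K := by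
    intro H K hH hK
    obtain ⟨a, ha2, ha1, rfl⟩ := eq_zpowers_of_card_two H hH
    obtain ⟨b, hb2, hb1, rfl⟩ := eq_zpowers_of_card_two K hK
    rw [hcon a b ha2 hb2 ha1 hb1]
  rcases Cfsg.Agent.S0016.result 2 hR huniq with h | ⟨-, n, ⟨e⟩⟩
  · exact hRc h
  · rcases n with _ | n
    · apply hRc
      haveI : IsCyclic (QuaternionGroup (2 ^ 0)) := QuaternionGroup.quaternionGroup_one_isCyclic
      exact isCyclic_of_surjective e.symm e.symm.surjective
    · have h1 := hcomm (e.symm (QuaternionGroup.a 1)) (e.symm (QuaternionGroup.xa 0))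
      rw [← map_mul, ← map_mul] at h1
      have h2 := e.symm.injective h1
      rw [QuaternionGroup.a_mul_xa, QuaternionGroup.xa_mul_a, QuaternionGroup.xa.injEq] at h2
      have h3 : ((2 : ℕ) : ZMod (2 * 2 ^ (n + 1))) = 0 := by
        push_cast
        linear_combination -h2
      rw [ZMod.natCast_eq_zero_iff] at h3
      have h4 := Nat.le_of_dvd (by norm_num) h3
      have h5 : 0 < 2 ^ n := by positivity
      rw [pow_succ] at h4
      omega

variable {F : Type*} [Field F] [Fintype F]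

theorem finPSL : Finite (PSL2 F) := by
  classical
  exact Finite.of_surjective (QuotientGroup.mk' (Subgroup.center (Matrix.SpecialLinearGroup (Fin 2) F)))
    (QuotientGroup.mk'_surjective _)

theorem inv_case (h2 : (2 : F) ≠ 0) (c : PSL2 F) (hc : orderOf c = 2)
    (hcit : IsPGroup 2 ↥(Subgroup.centralizer ({c} : Set (PSL2 F))))
    (H : Subgroup (PSL2 F)) (hH : ¬ IsCyclic ↥H) (hHc : ∀ y ∈ H, y * c = c * y) : c ∈ H := by
  haveI : Finite (PSL2 F) := finPSL
  haveI : Fact (Nat.Prime 2) := ⟨Nat.prime_two⟩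
  have hle : H ≤ Subgroup.centralizer ({c} : Set (PSL2 F)) := by
    intro y hy
    rw [Subgroup.mem_centralizer_singleton_iff]
    exact hHc y hy
  have hHp : IsPGroup 2 H := hcit.to_le hle
  haveI : Nontrivial H := by
    by_contra hnt
    rw [not_nontrivial_iff_subsingleton] at hnt
    exact hH inferInstance
  have hZnt := hHp.center_nontrivial
  have hZp : IsPGroup 2 (Subgroup.center H) := hHp.to_subgroup _
  obtain ⟨k, hk⟩ := IsPGroup.iff_card.1 hZp
  have hk0 : k ≠ 0 := by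
    rintro rfl
    have := Finite.one_lt_card (α := Subgroup.center H)
    rw [hk] at this
    simp at this
  have hdvd : 2 ∣ Nat.card (Subgroup.center H) := by
    rw [hk]; exact dvd_pow_self 2 hk0
  obtain ⟨z, hz⟩ := exists_prime_orderOf_dvd_card' 2 hdvd
  set z0 : PSL2 F := ((z : H) : PSL2 F) with hz0
  have hz0o : orderOf z0 = 2 := by
    rw [hz0, Subgroup.orderOf_coe, Subgroup.orderOf_coe, hz]
  have hz0H : z0 ∈ H := (z : H).2
  have hz0c : ∀ y ∈ H, y * z0 = z0 * y := by
    intro y hy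
    have := Subgroup.mem_center_iff.1 z.2 ⟨y, hy⟩
    exact congrArg Subtype.val this
  have hz2 : z0 ^ 2 = 1 := by
    have := pow_orderOf_eq_one z0
    rwa [hz0o] at this
  have hc2 : c ^ 2 = 1 := by
    have := pow_orderOf_eq_one c
    rwa [hc] at this
  have hz1 : z0 ≠ 1 := by
    intro h; rw [h, orderOf_one] at hz0o; norm_num at hz0o
  have hc1 : c ≠ 1 := by
    intro h; rw [h, orderOf_one] at hc; norm_num at hc
  by_contra hcH
  have hzc : z0 ≠ c := fun h => hcH (h ▸ hz0H)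
  apply hH
  have hle2 : H ≤ Subgroup.zpowers z0 := by
    intro y hy
    rcases Cfsg.Agent.Lib.Helper6Sol.klein_self_centralizing h2 z0 c y hz2 hc2 hz1 hc1 hzc
      (hHc z0 hz0H) (hz0c y hy) (hHc y hy) with h | h | h | h
    · rw [h]; exact one_mem _
    · rw [h]; exact Subgroup.mem_zpowers _
    · exact absurd (h ▸ hy) hcH
    · exfalso
      apply hcH
      have : c = z0⁻¹ * y := by rw [h]; group
      rw [this]
      exact mul_mem (inv_mem hz0H) hy
  exact Subgroup.isCyclic_of_le hle2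

theorem two_case (h2 : (2 : F) ≠ 0) (R : Subgroup (PSL2 F)) (hR : IsPGroup 2 ↥R)
    (hcomm : ∀ x ∈ R, ∀ y ∈ R, x * y = y * x) (hRc : ¬ IsCyclic ↥R)
    (c : PSL2 F) (hc : ∀ y ∈ R, y * c = c * y) : c ^ 2 = 1 := by
  haveI : Finite (PSL2 F) := finPSL
  obtain ⟨a, b, ha2, hb2, ha1, hb1, hab⟩ := exists_two_involutions hR
    (fun x y => Subtype.ext (hcomm x x.2 y y.2)) hRc
  have ha2' : (a : PSL2 F) ^ 2 = 1 := by
    have := congrArg Subtype.val ha2
    simpa using this
  have hb2' : (b : PSL2 F) ^ 2 = 1 := by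
    have := congrArg Subtype.val hb2
    simpa using this
  have hcab := hcomm a a.2 b b.2
  rcases Cfsg.Agent.Lib.Helper6Sol.klein_self_centralizing h2 (a : PSL2 F) b c ha2' hb2'
    (fun h => ha1 (Subtype.ext h)) (fun h => hb1 (Subtype.ext h)) (fun h => hab (Subtype.ext h))
    hcab (hc a a.2).symm (hc b b.2).symm with h | h | h | h
  · rw [h, one_pow]
  · rw [h, ha2']
  · rw [h, hb2']
  · rw [h, (show Commute (a : PSL2 F) b from hcab).mul_pow, ha2', hb2', one_mul]

end Cfsg.Agent.Lib.H71NccB2
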