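import Mathlib
import Cfsg.Agent.Lib.Helper6SolB2

/-!
# Project NCC (S3921), piece `B3`
In `PSL₂(F)`, char `≠ 2`, the centralizer of an element `c` with `c² ≠ 1` is commutative.
-/

set_option autoImplicit false

namespace Cfsg.Agent.Lib.H71NccB3

open Cfsg.Agent.Lib.Helper46SL2 Cfsg.Agent.Lib.Helper41SL2 Cfsg.Agent.Lib.Helper6Sol

local notation "SL2" => Matrix.SpecialLinearGroup (Fin 2)
local notation "PSL2" => Matrix.ProjectiveSpecialLinearGroup (Fin 2)

private theorem lift_commute {F : Type*} [Field F] (h2 : (2 : F) ≠ 0) (n x : SL2 F)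
    (hn : n ^ 2 ∉ Subgroup.center (SL2 F))
    (h : (QuotientGroup.mk x : PSL2 F) * QuotientGroup.mk n
      = QuotientGroup.mk n * QuotientGroup.mk x) : x * n = n * x := by
  rcases (mk_commute_iff x n).1 h with h1 | h1
  · exact h1.symm
  · exfalso
    -- `n * x = -(x * n)`, so `tr n = 0`
    have h3 : x * n * x⁻¹ = -n := by
      have : x * n = -(n * x) := by rw [h1, neg_neg]
      rw [this, neg_mul, mul_assoc, mul_inv_cancel, mul_one]
    have h4 : tr n = - tr n := by
      have := tr_conj n x
      rw [h3, tr_neg] at this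
      exact this.symm
    have h5 : tr n = 0 := by
      have h6 : 2 * tr n = 0 := by linear_combination h4
      exact (mul_eq_zero.1 h6).resolve_left h2
    apply hn
    rw [mem_center_iff_eq, sq]
    right
    ext i j
    have := sq_eq n i j
    rw [h5, zero_mul, zero_sub] at this
    rw [this, Cfsg.Agent.Lib.Helper46SL2.neg_apply]

theorem comm_of_commute {F : Type*} [Field F] (h2 : (2 : F) ≠ 0) (c a b : PSL2 F) (hc : c ^ 2 ≠ 1)
    (ha : a * c = c * a) (hb : b * c = c * b) : a * b = b * a := by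
  obtain ⟨n, rfl⟩ := QuotientGroup.mk_surjective c
  obtain ⟨x, rfl⟩ := QuotientGroup.mk_surjective a
  obtain ⟨y, rfl⟩ := QuotientGroup.mk_surjective b
  have hn2 : n ^ 2 ∉ Subgroup.center (SL2 F) := by
    rwa [Ne, mk_pow_eq_one_iff] at hc
  have hn : n ∉ Subgroup.center (SL2 F) := fun h => hn2 (Subgroup.pow_mem _ h 2)
  have hx := lift_commute h2 n x hn2 ha
  have hy := lift_commute h2 n y hn2 hb
  have := commute_of_mem_centralizer hn hx hy
  rw [← QuotientGroup.mk_mul, ← QuotientGroup.mk_mul, this]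

end Cfsg.Agent.Lib.H71NccB3
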