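import Mathlib
import Cfsg.Agent.S0262

/-!
# Project NCC (S3921), piece `B4`
`r`-subgroups of `PSL₂(q)` are cyclic for odd primes `r ≠ p`.
-/

set_option autoImplicit false

namespace Cfsg.Agent.Lib.H71NccB4

local notation "PSL2" => Matrix.ProjectiveSpecialLinearGroup (Fin 2)

theorem isCyclic_of_isPGroup {F : Type*} [Field F] [Fintype F] (p : ℕ) [Fact p.Prime] [CharP F p]
    (r : ℕ) [Fact r.Prime] (hr : r ≠ 2) (hrp : r ≠ p) (R : Subgroup (PSL2 F)) (hR : IsPGroup r ↥R) :
    IsCyclic ↥R := by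
  classical
  let π : Matrix.SpecialLinearGroup (Fin 2) F →* PSL2 F :=
    QuotientGroup.mk' (Subgroup.center (Matrix.SpecialLinearGroup (Fin 2) F))
  have hπ : Function.Surjective π := QuotientGroup.mk'_surjective _
  obtain ⟨T⟩ : Nonempty (Sylow r (Matrix.SpecialLinearGroup (Fin 2) F)) := inferInstance
  have hT : IsCyclic (T : Subgroup (Matrix.SpecialLinearGroup (Fin 2) F)) :=
    Cfsg.Agent.S0262.result p r hr hrp T
  let T1 : Sylow r (PSL2 F) := T.mapSurjective hπ
  have hT1 : IsCyclic (T1 : Subgroup (PSL2 F)) := by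
    have h1 : (T1 : Subgroup (PSL2 F)) = (T : Subgroup _).map π := rfl
    rw [h1]
    exact isCyclic_of_surjective ((π.subgroupMap (T : Subgroup _)))
      (π.subgroupMap_surjective _)
  obtain ⟨T', hT'⟩ := hR.exists_le_sylow
  have hT'c : IsCyclic (T' : Subgroup (PSL2 F)) := by
    have e : (T1 : Subgroup (PSL2 F)) ≃* (T' : Subgroup (PSL2 F)) := Sylow.equiv T1 T'
    exact isCyclic_of_surjective e e.surjective
  exact isCyclic_of_injective (Subgroup.inclusion hT') (Subgroup.inclusion_injective hT')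

end Cfsg.Agent.Lib.H71NccB4
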