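import Mathlib

/-!
# Groups in which every non-cyclic subgroup contains its centralizer (`NCC`)
Basic definitions and inheritance lemmas (project NCC = rows S3921, S3918, S3920).
-/

set_option autoImplicit false

namespace Cfsg.Agent.Lib.Helper71NCC

/-- every non-cyclic subgroup contains its centralizer -/
def NCC (G : Type*) [Group G] : Prop :=
  ∀ H : Subgroup G, ¬ IsCyclic ↥H → Subgroup.centralizer (H : Set G) ≤ H

variable {G : Type*} [Group G]

/-- `NCC` passes to subgroups. -/
theorem NCC.subgroup (h : NCC G) (K : Subgroup G) : NCC ↥K := by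
  intro H hH x hx
  have hH' : ¬ IsCyclic ↥(H.map K.subtype) := by
    intro hc
    apply hH
    exact isCyclic_of_surjective (H.equivMapOfInjective K.subtype K.subtype_injective).symm
      (MulEquiv.surjective _)
  have := h (H.map K.subtype) hH'
  have hx' : (x : G) ∈ Subgroup.centralizer ((H.map K.subtype : Subgroup G) : Set G) := by
    rw [Subgroup.mem_centralizer_iff]
    rintro _ ⟨y, hy, rfl⟩
    have := (Subgroup.mem_centralizer_iff.1 hx) y hy
    exact congrArg Subtype.val this
  obtain ⟨y, hy, hyx⟩ := this hx'
  have : y = x := Subtype.ext hyx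
  exact this ▸ hy

/-- `NCC` is invariant under isomorphism. -/
theorem NCC.of_mulEquiv {G' : Type*} [Group G'] (e : G ≃* G') (h : NCC G) : NCC G' := by
  intro H hH x hx
  have hH' : ¬ IsCyclic ↥(H.comap e.toMonoidHom) := by
    intro hc
    apply hH
    have e2 : ↥(H.comap e.toMonoidHom) ≃* ↥H :=
      { toFun := fun y => ⟨e y.1, y.2⟩
        invFun := fun y => ⟨e.symm y.1, by
          show e (e.symm y.1) ∈ H
          simp⟩
        left_inv := fun y => by ext; simp
        right_inv := fun y => by ext; simp
        map_mul' := fun a b => Subtype.ext (by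
          show e ((a * b : ↥(H.comap e.toMonoidHom)) : G) = e a.1 * e b.1
          rw [Subgroup.coe_mul, map_mul]) }
    exact isCyclic_of_surjective e2 e2.surjective
  have hx' : e.symm x ∈ Subgroup.centralizer ((H.comap e.toMonoidHom : Subgroup G) : Set G) := by
    rw [Subgroup.mem_centralizer_iff]
    intro y hy
    have := (Subgroup.mem_centralizer_iff.1 hx) (e y) hy
    apply e.injective
    simpa using this
  have := h _ hH' hx'
  simpa [Subgroup.mem_comap] using this

/-- A subgroup of `C(x)` not containing `x` is cyclic. -/
theorem NCC.isCyclic_of_not_mem (h : NCC G) {x : G} {H : Subgroup G}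
    (hH : ∀ y ∈ H, y * x = x * y) (hx : x ∉ H) : IsCyclic ↥H := by
  by_contra hc
  exact hx (h H hc (Subgroup.mem_centralizer_iff.2 hH))

end Cfsg.Agent.Lib.Helper71NCC
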