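import Mathlib
import Cfsg.Agent.Lib.Helper71NCCDefs
import Cfsg.Agent.Lib.H71NccAutp
import Cfsg.Agent.S3918
import Cfsg.Agent.S3917
import Cfsg.Agent.S0071

/-!
# Project NCC (S3921), piece `Even`  (est. 60-90 min)
A non-abelian simple `NCC` group has even order (NO Feit-Thompson needed).

SKETCH.  Suppose `card G` odd; `p = (Nat.card G).minFac` is an odd prime; `P : Sylow p G`.
Use `Cfsg.Agent.S0071.result P` (Frobenius): it suffices that for `Q ≤ P`, `g ∈ N(Q)` with `orderOf g` coprime to `p`, `g ∈ C(Q)`.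
Then a normal complement `N` of `P` exists; `N = ⊥` (then `G = P` is a `p`-group: simple + nilpotent/solvable => commutative,
`IsSimpleGroup.comm_iff_isSolvable`) or `N = ⊤` (then `P = ⊥`, but `p ∣ card G`).
Claim: `φ = Subgroup.normalizerMonoidHom Q : N(Q) →* MulAut Q`, kernel = `C(Q)` (`Subgroup.normalizerMonoidHom_ker`).
If `β₀ = φ g ≠ 1`: `orderOf β₀ ∣ orderOf g`; `l = (orderOf β₀).minFac` is a prime dividing `card G`, `l ≠ p`, so `p < l`
(`Nat.minFac_le_of_dvd`); `β = β₀ ^ (orderOf β₀ / l)` has order `l` (`orderOf_pow_orderOf_div`).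
`Q` is a `p`-group with `NCC` (`NCC.subgroup`):  commutative => `Cfsg.Agent.S3917.result`: cyclic or of order `r^2` (`r = p` as `Q` is a `p`-group);
non-commutative => `Cfsg.Agent.S3918.result` gives `card Q = p^3`.  Apply `H71NccAutp.no_large_prime_aut`.
-/

set_option autoImplicit false

namespace Cfsg.Agent.Lib.H71NccEven

open Cfsg.Agent.Lib.Helper71NCC

theorem even_card {G : Type*} [Group G] [Finite G] [IsSimpleGroup G] (hna : ¬ IsMulCommutative G)
    (h : NCC G) : Even (Nat.card G) := by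
  by_contra hodd
  have hcard1 : Nat.card G ≠ 1 := by
    intro h1
    have : Subsingleton G := (Nat.card_eq_one_iff_unique.1 h1).1
    exact hna ⟨⟨fun a b => Subsingleton.elim _ _⟩⟩
  set p := (Nat.card G).minFac with hpdef
  have hp : p.Prime := Nat.minFac_prime hcard1
  haveI : Fact p.Prime := ⟨hp⟩
  have hpd : p ∣ Nat.card G := Nat.minFac_dvd _
  have hp2 : p ≠ 2 := by
    intro h2
    exact hodd (even_iff_two_dvd.2 (h2 ▸ hpd))
  obtain ⟨P⟩ : Nonempty (Sylow p G) := inferInstance
  obtain ⟨N, hNn, hNc⟩ := (Cfsg.Agent.S0071.result P).2 (by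
    intro Q hQP g hg hcop
    by_contra hgC
    have hQp : IsPGroup p Q := P.2.to_le hQP
    have hβ₀ : Q.normalizerMonoidHom ⟨g, hg⟩ ≠ 1 := by
      intro h1
      have : (⟨g, hg⟩ : Subgroup.normalizer (Q : Set G)) ∈ Q.normalizerMonoidHom.ker := h1
      rw [Subgroup.normalizerMonoidHom_ker, Subgroup.mem_subgroupOf] at this
      exact hgC this
    set β₀ := Q.normalizerMonoidHom ⟨g, hg⟩ with hβ₀def
    have hd1 : orderOf β₀ ∣ orderOf g := by
      have := orderOf_map_dvd Q.normalizerMonoidHom (⟨g, hg⟩ : Subgroup.normalizer (Q : Set G))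
      rwa [Subgroup.orderOf_mk] at this
    have hne1 : orderOf β₀ ≠ 1 := fun h1 => hβ₀ (orderOf_eq_one_iff.1 h1)
    have hl : (orderOf β₀).minFac.Prime := Nat.minFac_prime hne1
    have hld : (orderOf β₀).minFac ∣ orderOf β₀ := Nat.minFac_dvd _
    have hlg : (orderOf β₀).minFac ∣ orderOf g := hld.trans hd1
    have hlG : (orderOf β₀).minFac ∣ Nat.card G := hlg.trans (orderOf_dvd_natCard g)
    have hle : p ≤ (orderOf β₀).minFac := Nat.minFac_le_of_dvd hl.two_le hlG
    have hlp : (orderOf β₀).minFac ≠ p := by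
      intro h0
      have h3 : p ∣ Nat.gcd (orderOf g) p := Nat.dvd_gcd (h0 ▸ hlg) dvd_rfl
      rw [hcop.gcd_eq_one] at h3
      exact hp.one_lt.ne' (Nat.dvd_one.1 h3)
    have hlt : p < (orderOf β₀).minFac := lt_of_le_of_ne hle (Ne.symm hlp)
    have hβ : orderOf (β₀ ^ (orderOf β₀ / (orderOf β₀).minFac)) = (orderOf β₀).minFac :=
      orderOf_pow_orderOf_div (orderOf_pos β₀).ne' hld
    have hQncc : NCC Q := h.subgroup Q
    apply Cfsg.Agent.Lib.H71NccAutp.no_large_prime_aut hp hp2 hl hlt _ hβ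
    by_cases hQc : IsMulCommutative Q
    · letI : CommGroup Q := { (inferInstance : Group Q) with mul_comm := hQc.is_comm.comm }
      rcases Cfsg.Agent.S3917.result (G := Q) hQncc with hc | ⟨r, hr, hrc, -⟩
      · exact Or.inl ⟨hc, hQp⟩
      · right; left
        obtain ⟨k, hk⟩ := hQp.exists_card_eq
        have h4 : r ∣ p ^ k := by rw [← hk, hrc]; exact dvd_pow_self r (by norm_num)
        have h5 : r = p := (Nat.prime_dvd_prime_iff_eq hr hp).1 (hr.dvd_of_dvd_pow h4)
        rw [hrc, h5]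
    · right; right
      exact ⟨(Cfsg.Agent.S3918.result hp2 hQp hQc).1 hQncc, hQc⟩)
  rcases hNn.eq_bot_or_eq_top with rfl | rfl
  · rw [Subgroup.isComplement'_bot_left] at hNc
    have hGp : IsPGroup p G := by
      have := P.2
      rw [hNc] at this
      exact this.of_equiv Subgroup.topEquiv
    haveI := hGp.isNilpotent
    exact hna ⟨⟨IsSimpleGroup.comm_iff_isSolvable.mpr inferInstance⟩⟩
  · rw [Subgroup.isComplement'_top_left] at hNc
    exact P.ne_bot_of_dvd_card hpd hNc

end Cfsg.Agent.Lib.H71NccEven
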