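import Mathlib
import Cfsg.Agent.Lib.Helper71NCCDefs
import Cfsg.Agent.S0250
import Cfsg.Agent.S0251
import Cfsg.Agent.S0252

/-!
# Project NCC (S3921), piece `Small`
`PSL₂(q)` is `NCC` for `q ≤ 4`.
-/

set_option autoImplicit false

namespace Cfsg.Agent.Lib.H71NccSmall

open Cfsg.Agent.Lib.Helper71NCC

local notation "PSL2" => Matrix.ProjectiveSpecialLinearGroup (Fin 2)

theorem ncc_of_small_centralizers {X : Type*} [Group X] [Finite X]
    (h : ∀ c : X, c ≠ 1 → Nat.card ↥(Subgroup.centralizer ({c} : Set X)) ≤ 7) : NCC X := by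
  intro H hH c hc
  by_contra hcH
  have hc1 : c ≠ 1 := fun h1 => hcH (h1 ▸ H.one_mem)
  have hle : H ≤ Subgroup.centralizer ({c} : Set X) := by
    intro x hx
    rw [Subgroup.mem_centralizer_iff]
    intro y hy
    rw [Set.mem_singleton_iff] at hy
    subst hy
    exact ((Subgroup.mem_centralizer_iff.1 hc) x hx).symm
  have hcc : c ∈ Subgroup.centralizer ({c} : Set X) := by
    rw [Subgroup.mem_centralizer_iff]
    intro y hy
    rw [Set.mem_singleton_iff] at hy
    subst hy
    rfl
  have hidx : H.relIndex (Subgroup.centralizer ({c} : Set X)) ≠ 1 := by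
    intro h1
    rw [Subgroup.relIndex_eq_one] at h1
    exact hcH (h1 hcc)
  have hmul : H.relIndex (Subgroup.centralizer ({c} : Set X)) * Nat.card H =
      Nat.card ↥(Subgroup.centralizer ({c} : Set X)) := by
    have := Subgroup.relIndex_mul_relIndex ⊥ H (Subgroup.centralizer ({c} : Set X)) bot_le hle
    rw [Subgroup.relIndex_bot_left, Subgroup.relIndex_bot_left] at this
    rw [mul_comm]; exact this
  have hidx0 : H.relIndex (Subgroup.centralizer ({c} : Set X)) ≠ 0 := by
    intro h0
    rw [h0, zero_mul] at hmul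
    exact (Nat.card_pos (α := ↥(Subgroup.centralizer ({c} : Set X)))).ne hmul
  have h7 := h c hc1
  have h2 : 2 ≤ H.relIndex (Subgroup.centralizer ({c} : Set X)) := by omega
  have hcard : Nat.card H ≤ 3 := by
    by_contra hgt
    have : 2 * 4 ≤ H.relIndex (Subgroup.centralizer ({c} : Set X)) * Nat.card H :=
      Nat.mul_le_mul h2 (by omega)
    omega
  have hpos : 0 < Nat.card H := Nat.card_pos
  apply hH
  have h123 : Nat.card H = 1 ∨ Nat.card H = 2 ∨ Nat.card H = 3 := by omega
  rcases h123 with h1 | h1 | h1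
  · haveI : Subsingleton H := (Nat.card_eq_one_iff_unique.1 h1).1
    exact isCyclic_of_subsingleton
  · haveI : Fact (Nat.Prime 2) := ⟨Nat.prime_two⟩
    exact isCyclic_of_prime_card h1
  · haveI : Fact (Nat.Prime 3) := ⟨Nat.prime_three⟩
    exact isCyclic_of_prime_card h1

set_option maxRecDepth 100000 in
theorem a4_aux : ∀ c : alternatingGroup (Fin 4), c ≠ 1 →
    Fintype.card {x : alternatingGroup (Fin 4) // x * c = c * x} ≤ 7 := by
  decide +kernel

set_option maxRecDepth 100000 in
theorem a5_aux : ∀ c : alternatingGroup (Fin 5), c ≠ 1 →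
    Fintype.card {x : alternatingGroup (Fin 5) // x * c = c * x} ≤ 7 := by
  decide +kernel

theorem card_centralizer_eq {X : Type*} [Group X] [Fintype X] [DecidableEq X] (c : X) :
    Nat.card ↥(Subgroup.centralizer ({c} : Set X)) = Fintype.card {x : X // x * c = c * x} := by
  rw [← Nat.card_eq_fintype_card]
  refine Nat.card_congr (Equiv.subtypeEquivRight ?_)
  intro x
  rw [Subgroup.mem_centralizer_iff]
  constructor
  · intro h
    exact (h c (Set.mem_singleton c)).symm
  · intro h y hy
    rw [Set.mem_singleton_iff] at hy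
    subst hy
    exact h.symm

theorem ncc_psl2_small {F : Type*} [Field F] [Fintype F] (h4 : Fintype.card F ≤ 4) :
    NCC (PSL2 F) := by
  classical
  have h1 : 1 < Fintype.card F := Fintype.one_lt_card
  have h234 : Fintype.card F = 2 ∨ Fintype.card F = 3 ∨ Fintype.card F = 4 := by omega
  rcases h234 with hF | hF | hF
  · obtain ⟨e⟩ := Cfsg.Agent.S0250.result hF
    have hSL : Nat.card (Matrix.SpecialLinearGroup (Fin 2) F) = 6 := by
      rw [Nat.card_congr e.toEquiv, Nat.card_eq_fintype_card, Fintype.card_perm, Fintype.card_fin]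
      rfl
    have hPSL : Nat.card (PSL2 F) ≤ 6 := by
      rw [← hSL]
      exact Nat.card_le_card_of_surjective _ (QuotientGroup.mk'_surjective _)
    apply ncc_of_small_centralizers
    intro c _
    have := Subgroup.card_le_card_group (Subgroup.centralizer ({c} : Set (PSL2 F)))
    omega
  · obtain ⟨e⟩ := Cfsg.Agent.S0251.result hF
    refine NCC.of_mulEquiv e.symm (ncc_of_small_centralizers ?_)
    intro c hc
    rw [card_centralizer_eq]
    exact a4_aux c hc
  · obtain ⟨e⟩ := Cfsg.Agent.S0252.result hF
    refine NCC.of_mulEquiv e.symm (ncc_of_small_centralizers ?_)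
    intro c hc
    rw [card_centralizer_eq]
    exact a5_aux c hc

end Cfsg.Agent.Lib.H71NccSmall
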