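import Mathlib

/-!
# Project OS (S3421): `PSL(2,q)` is characterised by its order and its set of element orders

Vocabulary.  `PS G p q m₁ m₂`: `G` has the order and the element orders of `PSL(2,q)`, `q = p^f > 3` odd;
`m₁` is the even one and `m₂` the odd one of `(q-1)/2`, `(q+1)/2`.
`BS T t W`: `t` is an involution, `W` a cyclic subgroup of index 2 of `C(t)` containing `t`, every `1 ≠ x ∈ W` has
centralizer `W` or `C(t)`, and `C(t)` has odd index.
`Red T`: no subgroup of index 2, no nontrivial normal subgroup of odd order, trivial centre.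
`SY t W S`: `S` is a Sylow 2-subgroup inside `C(t)`, containing `t`, with `S ∩ W` of index 2 in `S`.
-/

set_option autoImplicit false

namespace Cfsg.Agent.Lib.Helper71OS

abbrev PSL2 (F : Type*) [Field F] := Matrix.ProjectiveSpecialLinearGroup (Fin 2) F

structure PS (G : Type*) [Group G] (p q m₁ m₂ : ℕ) : Prop where
  hp : p.Prime
  hp2 : p ≠ 2
  hq : ∃ f : ℕ, q = p ^ f
  hq3 : 3 < q
  hm1 : Even m₁
  hm2 : Odd m₂
  hsum : m₁ + m₂ = q
  hdiff : m₁ = m₂ + 1 ∨ m₂ = m₁ + 1
  hcard : Nat.card G = 2 * q * m₁ * m₂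
  hord : ∀ g : G, orderOf g ∣ p ∨ orderOf g ∣ m₁ ∨ orderOf g ∣ m₂
  hw : ∃ w : G, orderOf w = m₁
  hy : ∃ y : G, orderOf y = m₂

structure BS (T : Type*) [Group T] (t : T) (W : Subgroup T) : Prop where
  ht : orderOf t = 2
  htW : t ∈ W
  hcyc : IsCyclic W
  hle : W ≤ Subgroup.centralizer ({t} : Set T)
  hidx : W.relIndex (Subgroup.centralizer ({t} : Set T)) = 2
  hcent : ∀ x ∈ W, x ≠ 1 → Subgroup.centralizer ({x} : Set T) = W ∨
      Subgroup.centralizer ({x} : Set T) = Subgroup.centralizer ({t} : Set T)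
  hsyl : ¬ 2 ∣ (Subgroup.centralizer ({t} : Set T)).index

structure Red (T : Type*) [Group T] : Prop where
  h1 : ∀ H : Subgroup T, H.index ≠ 2
  h2 : ∀ K : Subgroup T, K.Normal → Odd (Nat.card K) → K = ⊥
  h3 : Subgroup.center T = ⊥

structure SY {T : Type*} [Group T] (t : T) (W : Subgroup T) (S : Sylow 2 T) : Prop where
  hSC : (S : Subgroup T) ≤ Subgroup.centralizer ({t} : Set T)
  htS : t ∈ (S : Subgroup T)
  hidx : ((S : Subgroup T) ⊓ W).relIndex (S : Subgroup T) = 2

end Cfsg.Agent.Lib.Helper71OS
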