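import Mathlib
import Cfsg.Agent.Lib.Helper71OSDefs
import Cfsg.Agent.Lib.H71OsArithN
import Cfsg.Agent.S2475
import Cfsg.Agent.Lib.Helper6DkCor2

/-!
# Project OS (S3421), piece `ArithG`  (est. 1 h)
Glue: `N ≅ PSL(2,F')` of index dividing `2 m₁` forces `card F' = q` and `N = ⊤`.
SKETCH. `p' = ringChar F'`, `card F' = p'^f` (`FiniteField.card`).  `c = card N = card (PSL2 F')` (`Nat.card_congr e.toEquiv`), `2 c = q'(q'-1)(q'+1)` (`Cfsg.Agent.Lib.Helper6DkCor2.card_PSL2_odd`).  `d = N.index`, `d * c = card G` (`Subgroup.index_mul_card`).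
For `3 < q'`: `Cfsg.Agent.S2475.result p' (by omega)`: `(q'-1)/gcd(2,q'-1)` and `(q'+1)/gcd(2,q'-1)` are element orders of `PSL2 F'`; `gcd(2, q'-1) = 2` (`q'` odd); transport by `e.symm` (`MulEquiv.orderOf_eq`) and `Subgroup.orderOf_coe` to an element of `G`, then `h.hord`.
`H71OsArithN.card_eq` gives `q' = q`.  Then `2 c = q (q-1)(q+1) = q (4 m₁ m₂) `, so `c = card G`, `N = ⊤` (`Subgroup.eq_top_of_card_eq`).
-/

set_option autoImplicit false
set_option linter.style.haveILetI false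

namespace Cfsg.Agent.Lib.H71OsArithG

open Cfsg.Agent.Lib.Helper71OS

variable {G : Type*} [Group G] [Finite G] {p q m₁ m₂ : ℕ}

theorem card_field_eq (h : PS G p q m₁ m₂) (N : Subgroup G) (hidx : N.index ∣ 2 * m₁) {F' : Type} [Field F'] [Fintype F']
    (hodd : Odd (Fintype.card F')) (e : ↥N ≃* PSL2 F') : Fintype.card F' = q ∧ N = ⊤ := by
  obtain ⟨p', hp'char⟩ := CharP.exists F'
  obtain ⟨f, hp'prime, hf⟩ := FiniteField.card F' p'
  haveI : Fact p'.Prime := ⟨hp'prime⟩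
  have hc : 2 * Nat.card N = Fintype.card F' * (Fintype.card F' - 1) * (Fintype.card F' + 1) := by
    rw [Nat.card_congr e.toEquiv]
    exact Cfsg.Agent.Lib.Helper6DkCor.card_PSL2_odd hodd
  have hd : N.index * Nat.card N = 2 * q * m₁ * m₂ := by rw [Subgroup.index_mul_card, h.hcard]
  have hgcd : Nat.gcd 2 (Fintype.card F' - 1) = 2 := by
    apply Nat.gcd_eq_left
    obtain ⟨k, hk⟩ := hodd
    rw [hk]
    exact ⟨k, by omega⟩
  have hord : ∀ m : ℕ, 3 < Fintype.card F' →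
      (m ∣ p' ∨ m ∣ (Fintype.card F' - 1) / 2 ∨ m ∣ (Fintype.card F' + 1) / 2) →
      (m ∣ p ∨ m ∣ m₁ ∨ m ∣ m₂) := by
    intro m h3 hm
    have hS := Cfsg.Agent.S2475.result (F := F') p' (by omega)
    rw [hgcd] at hS
    have hmem : m ∈ Set.range (orderOf : Matrix.ProjectiveSpecialLinearGroup (Fin 2) F' → ℕ) := by
      rw [hS]; exact hm
    obtain ⟨g, hg⟩ := hmem
    have h1 := h.hord ((e.symm g : N) : G)
    rw [Subgroup.orderOf_coe, MulEquiv.orderOf_eq, hg] at h1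
    exact h1
  have hqq := Cfsg.Agent.Lib.H71OsArithN.card_eq h.hp h.hp2 h.hq h.hq3 h.hm1 h.hm2 h.hsum h.hdiff
    hp'prime ⟨f, f.ne_zero, hf⟩ hodd hc hd hidx
    (fun h3 => hord _ h3 (Or.inr (Or.inl dvd_rfl))) (fun h3 => hord _ h3 (Or.inr (Or.inr dvd_rfl)))
  refine ⟨hqq, ?_⟩
  apply Subgroup.eq_top_of_card_eq
  rw [h.hcard]
  rw [hqq] at hc
  have hsum := h.hsum
  have hkey : (q - 1) * (q + 1) = 4 * m₁ * m₂ := by
    rcases h.hdiff with h1 | h1
    · have e1 : q - 1 = 2 * m₂ := by omega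
      have e2 : q + 1 = 2 * m₁ := by omega
      rw [e1, e2]; ring
    · have e1 : q - 1 = 2 * m₁ := by omega
      have e2 : q + 1 = 2 * m₂ := by omega
      rw [e1, e2]; ring
  have h2 : 2 * Nat.card N = 2 * (2 * q * m₁ * m₂) := by
    rw [hc, mul_assoc, hkey]; ring
  exact Nat.eq_of_mul_eq_mul_left (by norm_num) h2

end Cfsg.Agent.Lib.H71OsArithG
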