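import Mathlib
import Cfsg.Agent.Lib.Helper71OSDefs

/-!
# Project OS (S3421), piece `Cyc2`  (est. 40 min)
PURE: a group with a nontrivial cyclic Sylow 2-subgroup has a subgroup of index 2.
SKETCH. Mathlib (`Mathlib/GroupTheory/Transfer.lean`): `IsCyclic.isComplement'`-type statement for the smallest prime divisor (`(Nat.card G).minFac = 2`), giving a normal complement `K = (MonoidHom.transferSylow S _).ker` of `S`; `T ⧸ K ≃* S`... 
So there is a surjective hom `T →* S`; `S` is a nontrivial cyclic 2-group, so it has a subgroup of index 2 (`Sylow.exists_subgroup_card_pow_prime`, or the image of squaring); take the comap (`Subgroup.index_comap_of_surjective`).  See also `Cfsg/Agent/Lib/H71FoSyl.lean` (`sylow_not_cyclic`) for the Mathlib names.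
Alternative: Cayley: the regular representation of a generator of `S` is an odd permutation; `sign ∘ (MulAction.toPermHom T T)` is onto `ℤˣ`; its kernel has index 2.
-/

set_option autoImplicit false
set_option linter.style.haveILetI false

namespace Cfsg.Agent.Lib.H71OsCyc2

open Cfsg.Agent.Lib.Helper71OS

theorem exists_index_two {T : Type*} [Group T] [Finite T] (S : Sylow 2 T) (hc : IsCyclic (S : Subgroup T))
    (hne : (S : Subgroup T) ≠ ⊥) : ∃ H : Subgroup T, H.index = 2 := by
  have : Fact (Nat.Prime 2) := ⟨Nat.prime_two⟩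
  obtain ⟨k, hk⟩ := (IsPGroup.iff_card).1 S.2
  obtain ⟨j, rfl⟩ : ∃ j, k = j + 1 := by
    rcases k with _ | j
    · rw [pow_zero] at hk
      exact absurd ((Subgroup.card_eq_one).1 hk) hne
    · exact ⟨j, rfl⟩
  have h2 : 2 ∣ Nat.card T := by
    refine dvd_trans ?_ (Subgroup.card_subgroup_dvd_card (S : Subgroup T))
    rw [hk]
    exact dvd_pow_self 2 (Nat.succ_ne_zero j)
  have hmin : (Nat.card T).minFac = 2 := (Nat.minFac_eq_two_iff _).2 h2
  have hNC := hc.normalizer_le_centralizer hmin
  have hcomp := MonoidHom.ker_transferSylow_isComplement' S hNC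
  have hidx : (MonoidHom.transferSylow S hNC).ker.index = 2 ^ (j + 1) := by
    rw [hcomp.symm.index_eq_card, hk]
  have hcq : Nat.card (T ⧸ (MonoidHom.transferSylow S hNC).ker) = 2 ^ (j + 1) := by
    rw [← Subgroup.index_eq_card, hidx]
  obtain ⟨H', hH'⟩ := Sylow.exists_subgroup_card_pow_prime (G := T ⧸ (MonoidHom.transferSylow S hNC).ker)
    2 (n := j) (by rw [hcq]; exact pow_dvd_pow 2 (Nat.le_succ j))
  refine ⟨H'.comap (QuotientGroup.mk' _), ?_⟩
  rw [Subgroup.index_comap_of_surjective _ (QuotientGroup.mk'_surjective _)]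
  have h3 := Subgroup.card_mul_index H'
  rw [hH', hcq, pow_succ] at h3
  exact Nat.eq_of_mul_eq_mul_left (by positivity) h3

end Cfsg.Agent.Lib.H71OsCyc2
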