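import Mathlib
import Cfsg.Agent.Lib.Helper26V4a

/-!
# An involution whose centralizer has a normal Sylow four-subgroup, in a simple group
-/

set_option autoImplicit false

namespace Cfsg.Agent.Lib.Helper26V4b

open Subgroup Cfsg.Agent.Lib.Helper26V4a Cfsg.Agent.Lib.Helper26ElemCent

variable {G : Type*} [Group G]

theorem two_elt_mem {C S₀ : Subgroup G} (hn : (S₀.subgroupOf C).Normal)
    (hodd : ¬ 2 ∣ S₀.relIndex C) {u : G} (huC : u ∈ C) {j : ℕ} (hu : orderOf u = 2 ^ j) :
    u ∈ S₀ := by
  have h1 : (⟨u, huC⟩ : C) ^ (S₀.subgroupOf C).index ∈ S₀.subgroupOf C :=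
    Subgroup.pow_index_mem _ _
  have h2 : u ^ S₀.relIndex C ∈ S₀ := by simpa [mem_subgroupOf, relIndex] using h1
  have hcop : Nat.Coprime (S₀.relIndex C) (orderOf u) := by
    rw [hu]
    exact Nat.Coprime.pow_right _
      (Nat.coprime_comm.1 ((Nat.Prime.coprime_iff_not_dvd Nat.prime_two).2 hodd))
  obtain ⟨m, hm⟩ := exists_pow_eq_self_of_coprime hcop
  rw [← hm]
  exact S₀.pow_mem h2 m

/-- If all conjugates of `z` commute with `z`, the normal closure of `z` is commutative. -/
theorem comm_normalClosure {z : G} (hcc : ∀ h : G, (h * z * h⁻¹) * z = z * (h * z * h⁻¹)) :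
    ∀ e ∈ normalClosure ({z} : Set G), ∀ f ∈ normalClosure ({z} : Set G), e * f = f * e := by
  set S : Set G := Group.conjugatesOfSet {z} with hS
  have hSmem : ∀ s ∈ S, ∃ h : G, h * z * h⁻¹ = s := by
    intro s hs
    rw [hS, Group.mem_conjugatesOfSet_iff] at hs
    obtain ⟨b, hb, hbs⟩ := hs
    rw [Set.mem_singleton_iff] at hb
    subst hb
    exact isConj_iff.1 hbs
  have hScomm : ∀ s ∈ S, ∀ t ∈ S, s * t = t * s := by
    intro s hs t ht
    obtain ⟨h, rfl⟩ := hSmem s hs
    obtain ⟨k, rfl⟩ := hSmem t ht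
    have := hcc (k⁻¹ * h)
    calc h * z * h⁻¹ * (k * z * k⁻¹) = k * ((k⁻¹ * h) * z * (k⁻¹ * h)⁻¹ * z) * k⁻¹ := by group
      _ = k * (z * ((k⁻¹ * h) * z * (k⁻¹ * h)⁻¹)) * k⁻¹ := by rw [this]
      _ = k * z * k⁻¹ * (h * z * h⁻¹) := by group
  have hEcl : normalClosure ({z} : Set G) = closure S := rfl
  have h1 : closure S ≤ centralizer S := (closure_le _).2 (fun s hs =>
    mem_centralizer_iff.2 (fun t ht => hScomm t ht s hs))
  have h2 : closure S ≤ centralizer (closure S : Set G) := (closure_le _).2 (fun s hs =>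
    mem_centralizer_iff.2 (fun t ht => (mem_centralizer_iff.1 (h1 ht) s hs).symm))
  intro e he f hf
  rw [hEcl] at he hf
  exact mem_centralizer_iff.1 (h2 hf) e he

theorem sq_of_klein {S₀ : Subgroup G} (hK : IsKleinFour S₀) : ∀ s ∈ S₀, s ^ 2 = 1 := by
  intro s hs
  have h := Monoid.pow_exponent_eq_one (⟨s, hs⟩ : S₀)
  rw [hK.exponent_two] at h
  simpa using congrArg Subtype.val h

section main

variable [Finite G] {x : G} (hx : orderOf x = 2) {S₀ : Subgroup G}
  (hle : S₀ ≤ centralizer ({x} : Set G)) (hK : IsKleinFour S₀)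
  (hodd : ¬ 2 ∣ S₀.relIndex (centralizer ({x} : Set G)))
  (hn : (S₀.subgroupOf (centralizer ({x} : Set G))).Normal)

include hx hodd hn in
omit [Finite G] in
theorem x_mem : x ∈ S₀ :=
  two_elt_mem hn hodd (by rw [mem_centralizer_singleton_iff]) (j := 1) (by simpa using hx)

include hle hn in
omit [Finite G] in
theorem conj_mem_S {c s : G} (hc : c ∈ centralizer ({x} : Set G)) (hs : s ∈ S₀) :
    c * s * c⁻¹ ∈ S₀ := by
  have h1 := hn.conj_mem ⟨s, hle hs⟩ (by simpa [mem_subgroupOf] using hs) ⟨c, hc⟩
  simpa [mem_subgroupOf] using h1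

include hx hle hK hodd hn in
omit [Finite G] in
/-- The centralizer of `x` centralizes `S₀`. -/
theorem centralizer_eq : centralizer (S₀ : Set G) = centralizer ({x} : Set G) := by
  have hxS := x_mem hx hodd hn
  have h4 : Nat.card S₀ = 4 := hK.card_four
  have hsq := sq_of_klein hK
  have hx2 : x * x = 1 := by rw [← pow_two, ← hx]; exact pow_orderOf_eq_one x
  have hx1 : x ≠ 1 := by
    rintro rfl
    simp at hx
  apply le_antisymm
  · exact centralizer_le (by simpa using hxS)
  · intro c hc
    have hcx : c * x = x * c := mem_centralizer_singleton_iff.1 hc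
    rw [mem_centralizer_iff]
    intro s hs
    have hs' : s ∈ S₀ := hs
    have hconj : c * s * c⁻¹ ∈ S₀ := conj_mem_S hle hn hc hs'
    by_cases hs1 : s = 1
    · rw [hs1]; simp
    by_cases hsx : s = x
    · rw [hsx]; exact hcx.symm
    rcases mem_four h4 hxS hs' hx2 hx1 hs1 hsx hconj with h | h | h | h
    · exfalso
      apply hs1
      have : s = c⁻¹ * (c * s * c⁻¹) * c := by group
      rw [this, h]; group
    · exfalso
      apply hsx
      have : s = c⁻¹ * (c * s * c⁻¹) * c := by group
      rw [this, h]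
      calc c⁻¹ * x * c = c⁻¹ * (x * c) := by group
        _ = c⁻¹ * (c * x) := by rw [hcx]
        _ = x := by group
    · rw [mul_inv_eq_iff_eq_mul] at h
      exact h.symm
    · exfalso
      rw [mul_inv_eq_iff_eq_mul] at h
      -- `c * s = x * s * c`
      have hc2 : Commute (c ^ 2) s := by
        show c ^ 2 * s = s * c ^ 2
        calc c ^ 2 * s = c * (c * s) := by rw [pow_two]; group
          _ = c * (x * s * c) := by rw [h]
          _ = (c * x) * (s * c) := by group
          _ = (x * c) * (s * c) := by rw [hcx]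
          _ = x * (c * s) * c := by group
          _ = x * (x * s * c) * c := by rw [h]
          _ = (x * x) * s * (c * c) := by group
          _ = s * c ^ 2 := by rw [hx2, one_mul, pow_two]
      obtain ⟨m, hm⟩ : Odd (S₀.relIndex (centralizer ({x} : Set G))) := by
        rw [← Nat.not_even_iff_odd, even_iff_two_dvd]; exact hodd
      have h1 : (⟨c, hc⟩ : centralizer ({x} : Set G)) ^
          (S₀.subgroupOf (centralizer ({x} : Set G))).index ∈
          S₀.subgroupOf (centralizer ({x} : Set G)) := Subgroup.pow_index_mem _ _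
      have h2 : c ^ S₀.relIndex (centralizer ({x} : Set G)) ∈ S₀ := by
        simpa [mem_subgroupOf, relIndex] using h1
      rw [hm, pow_succ, pow_mul] at h2
      set y := (c ^ 2) ^ m with hy
      have hys : Commute y s := hc2.pow_left m
      have hyx : Commute y x := by
        have : Commute c x := hcx
        exact (this.pow_left 2).pow_left m
      have h3 : (y * c) * s = s * (y * c) := comm_of_sq hsq h2 hs'
      have h4' : (y * c) * s = x * (s * (y * c)) := by
        calc (y * c) * s = y * (c * s) := by group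
          _ = y * (x * s * c) := by rw [h]
          _ = (y * x) * s * c := by group
          _ = (x * y) * s * c := by rw [hyx.eq]
          _ = x * (y * s) * c := by group
          _ = x * (s * y) * c := by rw [hys.eq]
          _ = x * (s * (y * c)) := by group
      rw [h3] at h4'
      exact hx1 (mul_eq_right.1 h4'.symm)

include hx hle hK hodd hn in
/-- In a simple group `S₀` is a Sylow `2`-subgroup. -/
theorem exists_sylow_eq [IsSimpleGroup G] : ∃ P : Sylow 2 G, (P : Subgroup G) = S₀ := by
  classical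
  have : Fact (Nat.Prime 2) := ⟨Nat.prime_two⟩
  have hxS := x_mem hx hodd hn
  have h4 : Nat.card S₀ = 4 := hK.card_four
  have hsq := sq_of_klein hK
  have hx2 : x * x = 1 := by rw [← pow_two, ← hx]; exact pow_orderOf_eq_one x
  have hx1 : x ≠ 1 := by
    rintro rfl
    simp at hx
  have hS₀p : IsPGroup 2 S₀ := isPGroup_of_sq hsq
  obtain ⟨T, hST⟩ := hS₀p.exists_le_sylow
  refine ⟨T, ?_⟩
  by_contra hne'
  have hord : ∀ g ∈ (T : Subgroup G), ∃ j, orderOf g = 2 ^ j := by
    intro g hg
    obtain ⟨j, hj⟩ := IsPGroup.iff_orderOf.1 T.2 ⟨g, hg⟩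
    exact ⟨j, by rw [← hj, Subgroup.orderOf_mk]⟩
  have h2sub : ∀ g ∈ (T : Subgroup G), g ∈ centralizer ({x} : Set G) → g ∈ S₀ := by
    intro g hgT hgC
    obtain ⟨j, hj⟩ := hord g hgT
    exact two_elt_mem hn hodd hgC hj
  -- the normalizer condition
  have hnil : Group.IsNilpotent T := T.2.isNilpotent
  have hnc' := Group.normalizerCondition_of_isNilpotent (G := T)
  have hlt : S₀.subgroupOf T < ⊤ := by
    rw [lt_top_iff_ne_top]
    intro h
    rw [subgroupOf_eq_top] at h
    exact hne' (le_antisymm h hST)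
  obtain ⟨g, hgN, hgV⟩ := SetLike.exists_of_lt (hnc' _ hlt)
  have hgS : (g : G) ∉ S₀ := by simpa [mem_subgroupOf] using hgV
  have hgconj : ∀ s ∈ S₀, (g : G) * s * (g : G)⁻¹ ∈ S₀ := by
    intro s hs
    have := (mem_normalizer_iff.1 hgN ⟨s, hST hs⟩).1 (by simpa [mem_subgroupOf] using hs)
    simpa [mem_subgroupOf] using this
  have hTne : (T : Subgroup G) ≠ ⊥ := by
    intro h
    have := hST hxS
    rw [h, mem_bot] at this
    exact hx1 this
  obtain ⟨z, hzT, hz, hzc⟩ := exists_central_invol T hTne
  have hzC : z ∈ centralizer ({x} : Set G) := by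
    rw [mem_centralizer_singleton_iff]
    exact (hzc x (hST hxS)).symm
  have hzS : z ∈ S₀ := h2sub z hzT hzC
  have hz1 : z ≠ 1 := by
    rintro rfl
    simp at hz
  have hgC : (g : G) ∉ centralizer ({x} : Set G) := fun h => hgS (h2sub g g.2 h)
  have hzx : z ≠ x := by
    intro h
    apply hgC
    rw [mem_centralizer_singleton_iff, ← h]
    exact hzc g g.2
  have hgx : (g : G) * x * (g : G)⁻¹ = x * z := by
    rcases mem_four h4 hxS hzS hx2 hx1 hz1 hzx (hgconj x hxS) with h | h | h | h
    · exfalso
      apply hx1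
      have : x = (g : G)⁻¹ * ((g : G) * x * (g : G)⁻¹) * g := by group
      rw [this, h]; group
    · exfalso
      apply hgC
      rw [mem_centralizer_singleton_iff]
      rwa [mul_inv_eq_iff_eq_mul] at h
    · exfalso
      apply hzx
      have h1 : (g : G) * z * (g : G)⁻¹ = z := by
        rw [mul_inv_eq_iff_eq_mul]; exact hzc g g.2
      have h2 : (g : G) * x * (g : G)⁻¹ = (g : G) * z * (g : G)⁻¹ := by rw [h, h1]
      have h3 := mul_right_cancel h2
      exact (mul_left_cancel h3).symm
    · exact h
  have hnconj : ∀ h : G, h * x * h⁻¹ ≠ z := by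
    intro h hh
    apply hne'
    symm
    apply Subgroup.eq_of_le_of_card_ge hST
    have hmem : ∀ t : T, h⁻¹ * (t : G) * h ∈ S₀ := by
      intro t
      obtain ⟨j, hj⟩ := hord t t.2
      have h1 : (t : G) ∈ centralizer ({h * x * h⁻¹} : Set G) := by
        rw [hh, mem_centralizer_singleton_iff]
        exact hzc t t.2
      refine two_elt_mem hn hodd (conj_mem_centralizer' h1) (j := j) ?_
      have := orderOf_conj' h⁻¹ (t : G)
      rw [inv_inv] at this
      rw [this, hj]
    apply Nat.card_le_card_of_injective (fun t : T => (⟨h⁻¹ * (t : G) * h, hmem t⟩ : S₀))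
    intro t t' htt
    have h1 : h⁻¹ * (t : G) * h = h⁻¹ * (t' : G) * h := congrArg Subtype.val htt
    exact Subtype.ext (mul_left_cancel (mul_right_cancel h1))
  have hcc : ∀ h : G, (h * z * h⁻¹) * z = z * (h * z * h⁻¹) := by
    intro h
    have hz' : orderOf (h * z * h⁻¹) = 2 := by rw [orderOf_conj', hz]
    rcases Cfsg.Agent.Lib.Helper26StrEmb.dihedral_dichotomy hx hz' with
      ⟨i, hi, hix, hiz⟩ | ⟨w, -, hw⟩
    · have hiC : i ∈ centralizer ({x} : Set G) := by
        rw [mem_centralizer_singleton_iff]; exact hix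
      have hiS : i ∈ S₀ := two_elt_mem hn hodd hiC (j := 1) (by simpa using hi)
      have hi1 : i ≠ 1 := by
        rintro rfl
        simp at hi
      rcases mem_four h4 hxS hzS hx2 hx1 hz1 hzx hiS with h1 | h1 | h1 | h1
      · exact absurd h1 hi1
      · have h2 : h * z * h⁻¹ ∈ centralizer ({x} : Set G) := by
          rw [mem_centralizer_singleton_iff, ← h1]; exact hiz.symm
        exact comm_of_sq hsq (two_elt_mem hn hodd h2 (j := 1) (by simpa using hz')) hzS
      · have h2 := hiz.symm
        rw [h1] at h2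
        exact h2
      · have h2 : h * z * h⁻¹ ∈ centralizer ({(g : G) * x * (g : G)⁻¹} : Set G) := by
          rw [mem_centralizer_singleton_iff, hgx, ← h1]; exact hiz.symm
        have h3 := conj_mem_centralizer' h2
        have h4' : orderOf ((g : G)⁻¹ * (h * z * h⁻¹) * g) = 2 := by
          have := orderOf_conj' (g : G)⁻¹ (h * z * h⁻¹)
          rw [inv_inv] at this
          rw [this, hz']
        have h5 := hgconj _ (two_elt_mem hn hodd h3 (j := 1) (by simpa using h4'))
        have h6 : (g : G) * ((g : G)⁻¹ * (h * z * h⁻¹) * g) * (g : G)⁻¹ = h * z * h⁻¹ := by group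
        rw [h6] at h5
        exact comm_of_sq hsq h5 hzS
    · exfalso
      apply hnconj (h⁻¹ * w)
      calc h⁻¹ * w * x * (h⁻¹ * w)⁻¹ = h⁻¹ * (w * x * w⁻¹) * h := by group
        _ = z := by rw [hw]; group
  have hcomm := comm_normalClosure hcc
  have htop : normalClosure ({z} : Set G) = ⊤ := by
    rcases (normalClosure_normal (s := ({z} : Set G))).eq_bot_or_eq_top with h | h
    · exfalso
      have : z ∈ normalClosure ({z} : Set G) := subset_normalClosure (Set.mem_singleton z)
      rw [h, mem_bot] at this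
      exact hz1 this
    · exact h
  apply hgC
  rw [mem_centralizer_singleton_iff]
  exact hcomm _ (by rw [htop]; trivial) _ (by rw [htop]; trivial)

end main

end Cfsg.Agent.Lib.Helper26V4b
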