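import Mathlib

/-!
# Arithmetic of the degree relations of a principal block with four characters
-/

set_option autoImplicit false

namespace Cfsg.Agent.Lib.Helper26V4c

theorem arith_one (f₁ f₂ f₃ m : ℤ) (h1 : 1 ≤ f₁) (h2 : 1 ≤ f₂) (h3 : 1 ≤ f₃)
    (hR1 : 1 - f₁ + f₂ + f₃ = 0) (hm : 15 ≤ m)
    (hR : m * (f₁ * f₂ * f₃ - f₂ * f₃ + f₁ * f₃ + f₁ * f₂) = 8 * (f₁ * f₂ * f₃)) : False := by
  have e : f₁ = 1 + f₂ + f₃ := by linarith
  subst e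
  have hF : 0 < (1 + f₂ + f₃) * f₂ * f₃ := by positivity
  have hS : (1 + f₂ + f₃) * f₂ * f₃ ≤
      (1 + f₂ + f₃) * f₂ * f₃ - f₂ * f₃ + (1 + f₂ + f₃) * f₃ + (1 + f₂ + f₃) * f₂ := by
    nlinarith [mul_pos (by linarith : 0 < f₂) (by linarith : 0 < f₃)]
  nlinarith

theorem arith_two_le (f₁ f₂ f₃ m : ℤ) (h1 : 3 ≤ f₁) (h12 : f₁ ≤ f₂)
    (hR1 : 1 - f₁ - f₂ + f₃ = 0) (hm : 15 ≤ m)
    (hR : m * (f₁ * f₂ * f₃ - f₂ * f₃ - f₁ * f₃ + f₁ * f₂) = 8 * (f₁ * f₂ * f₃)) : m = 15 := by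
  have e : f₃ = f₁ + f₂ - 1 := by linarith
  have hf3 : 0 < f₃ := by linarith
  have hA : 0 < f₂ * f₃ := mul_pos (by linarith) hf3
  -- `f₁ ≤ 4`
  have hf1 : f₁ ≤ 4 := by
    by_contra hcon
    push Not at hcon
    have h5 : 5 ≤ f₁ := by linarith
    -- m f₁ A < 8 f₁ A + 2 m A
    have hk1 : m * (f₁ * (f₂ * f₃)) + m * (f₁ * f₂) = 8 * (f₁ * (f₂ * f₃)) + m * ((f₁ + f₂) * f₃) := by
      linear_combination hR
    have hk2 : (f₁ + f₂) * f₃ ≤ 2 * (f₂ * f₃) := by nlinarith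
    have hk3 : 0 < m * (f₁ * f₂) := mul_pos (by linarith) (mul_pos (by linarith) (by linarith))
    have hk4 : m * ((f₁ + f₂) * f₃) ≤ m * (2 * (f₂ * f₃)) :=
      mul_le_mul_of_nonneg_left hk2 (by linarith)
    have hk5 : (m * f₁ - 8 * f₁ - 2 * m) * (f₂ * f₃) < 0 := by nlinarith
    have hk6 : 0 ≤ m * f₁ - 8 * f₁ - 2 * m := by nlinarith
    nlinarith
  subst e
  have hcases : f₁ = 3 ∨ f₁ = 4 := by omega
  rcases hcases with rfl | rfl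
  · -- (m - 12) (2 f₂² + 4 f₂ - 6) = 72
    have hk : (m - 12) * (2 * f₂ * f₂ + 4 * f₂ - 6) = 72 := by linear_combination hR
    have hf2 : f₂ ≤ 3 := by
      by_contra hcon
      push Not at hcon
      have h4 : 4 ≤ f₂ := by linarith
      have hQ : 42 ≤ 2 * f₂ * f₂ + 4 * f₂ - 6 := by nlinarith
      have := mul_le_mul (by linarith : (3 : ℤ) ≤ m - 12) hQ (by norm_num) (by linarith)
      linarith
    have : f₂ = 3 := by linarith
    subst this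
    linarith
  · exfalso
    have hk : (3 * m - 32) * (f₂ * f₂ + 3 * f₂) = 12 * m := by linear_combination hR
    nlinarith

theorem arith_two (f₁ f₂ f₃ m : ℤ) (h1 : 3 ≤ f₁) (h2 : 3 ≤ f₂)
    (hR1 : 1 - f₁ - f₂ + f₃ = 0) (hm : 15 ≤ m)
    (hR : m * (f₁ * f₂ * f₃ - f₂ * f₃ - f₁ * f₃ + f₁ * f₂) = 8 * (f₁ * f₂ * f₃)) : m = 15 := by
  rcases le_total f₁ f₂ with h | h
  · exact arith_two_le f₁ f₂ f₃ m h1 h hR1 hm hR
  · exact arith_two_le f₂ f₁ f₃ m h2 h (by linarith) hm (by linear_combination hR)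

theorem arith_main (f₁ f₂ f₃ ε₁ ε₂ ε₃ m : ℤ) (h1 : 3 ≤ f₁) (h2 : 3 ≤ f₂) (h3 : 3 ≤ f₃)
    (hε : (ε₁ = 1 ∨ ε₁ = -1) ∧ (ε₂ = 1 ∨ ε₂ = -1) ∧ (ε₃ = 1 ∨ ε₃ = -1))
    (hR1 : 1 + ε₁ * f₁ + ε₂ * f₂ + ε₃ * f₃ = 0) (hm : 15 ≤ m)
    (hR : m * (f₁ * f₂ * f₃ + ε₁ * f₂ * f₃ + ε₂ * f₁ * f₃ + ε₃ * f₁ * f₂) = 8 * (f₁ * f₂ * f₃)) :
    m = 15 := by
  obtain ⟨e1, e2, e3⟩ := hε
  rcases e1 with rfl | rfl <;> rcases e2 with rfl | rfl <;> rcases e3 with rfl | rfl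
  · exfalso; linarith
  · exact (arith_one f₃ f₁ f₂ m (by linarith) (by linarith) (by linarith) (by linarith) hm
      (by linear_combination hR)).elim
  · exact (arith_one f₂ f₁ f₃ m (by linarith) (by linarith) (by linarith) (by linarith) hm
      (by linear_combination hR)).elim
  · exact arith_two f₂ f₃ f₁ m h2 h3 (by linarith) hm (by linear_combination hR)
  · exact (arith_one f₁ f₂ f₃ m (by linarith) (by linarith) (by linarith) (by linarith) hm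
      (by linear_combination hR)).elim
  · exact arith_two f₁ f₃ f₂ m h1 h3 (by linarith) hm (by linear_combination hR)
  · exact arith_two f₁ f₂ f₃ m h1 h2 (by linarith) hm (by linear_combination hR)
  · exfalso; linarith

end Cfsg.Agent.Lib.Helper26V4c
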