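import Mathlib
import Cfsg.Agent.Lib.Helper81Block

set_option autoImplicit false

/-! Counting pairs of involutions in a group `H = K ⋊ V`, `K` of odd order, `V` a four group with
a central involution `z`. -/

namespace Cfsg.Agent.Lib.Helper78Klein3

section abs

variable {H : Type*} [Group H]

/-- two involutions in the same coset of a normal subgroup of odd order are conjugate -/
theorem isConj_of_coset [Finite H] (K : Subgroup H) (hK : ¬ 2 ∣ Nat.card K) {s u : H}
    (hs : s * s = 1) (hu : u * u = 1) (hsu : s * u ∈ K) : IsConj s u := by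
  obtain ⟨k, hk⟩ : ∃ k, k = s * u := ⟨_, rfl⟩
  have hsinv : s⁻¹ = s := inv_eq_of_mul_eq_one_left hs
  have huk : u = s * k := by rw [hk, ← mul_assoc, hs, one_mul]
  have hinv : s * k * s⁻¹ = k⁻¹ := by
    rw [hsinv, hk]
    symm
    apply inv_eq_of_mul_eq_one_left
    calc s * (s * u) * s * (s * u) = (s * s) * u * (s * s) * u := by group
      _ = 1 := by rw [hs, one_mul, mul_one, hu]
  have hodd : Odd (orderOf k) := by
    rw [← Nat.not_even_iff_odd, even_iff_two_dvd]
    intro h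
    apply hK
    have : orderOf (⟨k, hk ▸ hsu⟩ : K) = orderOf k := Subgroup.orderOf_mk k _
    rw [← this] at h
    exact h.trans (orderOf_dvd_natCard _)
  obtain ⟨m, hm⟩ := hodd
  obtain ⟨r, hr⟩ : ∃ r, r = k ^ (m + 1) := ⟨_, rfl⟩
  have hrr : r * r = k := by
    rw [hr, ← pow_add]
    have : m + 1 + (m + 1) = orderOf k + 1 := by omega
    rw [this, pow_add, pow_orderOf_eq_one, one_mul, pow_one]
  have hrinv : s * r * s⁻¹ = r⁻¹ := by
    rw [hr, ← conj_pow, hinv, inv_pow]
  rw [isConj_iff]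
  refine ⟨r⁻¹, ?_⟩
  rw [inv_inv, huk, ← hrr]
  have : s * r = r⁻¹ * s := by
    rw [← hrinv]; group
  calc r⁻¹ * s * r = s * r * r := by rw [this]
    _ = s * (r * r) := by group

end abs

section cnt

variable {H : Type*} [Group H]

theorem isConj_iff_coset [Finite H] (K : Subgroup H) [K.Normal] (hK : ¬ 2 ∣ Nat.card K)
    (hcomm : ∀ x y : H ⧸ K, x * y = y * x) {s : H} (hs : s * s = 1) (hsK : s ∉ K) (u : H) :
    IsConj s u ↔ orderOf u = 2 ∧ (u : H ⧸ K) = (s : H ⧸ K) := by
  have hs1 : s ≠ 1 := by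
    rintro rfl
    exact hsK K.one_mem
  have hs2 : orderOf s = 2 := orderOf_eq_prime (by rw [pow_two]; exact hs) hs1
  constructor
  · intro h
    obtain ⟨c, rfl⟩ := isConj_iff.1 h
    refine ⟨by rw [← hs2]; exact (MulAut.conj c).orderOf_eq s, ?_⟩
    rw [QuotientGroup.mk_mul, QuotientGroup.mk_mul, hcomm, ← mul_assoc, ← QuotientGroup.mk_mul,
      inv_mul_cancel, QuotientGroup.mk_one, one_mul]
  · rintro ⟨h2, hq⟩
    have hu : u * u = 1 := by
      rw [← pow_two, ← h2]; exact pow_orderOf_eq_one u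
    apply isConj_of_coset K hK hs hu
    rw [← QuotientGroup.eq_one_iff, QuotientGroup.mk_mul, hq, ← QuotientGroup.mk_mul, hs,
      QuotientGroup.mk_one]

theorem card_pairs [Fintype H] [DecidableEq H] (K : Subgroup H) [K.Normal]
    (hK : ¬ 2 ∣ Nat.card K) {z t : H}
    (hz : z * z = 1) (hzc : ∀ g : H, g * z = z * g) (ht : t * t = 1) (hzK : z ∉ K) (htK : t ∉ K)
    (htzK : t * z ∉ K)
    (hcov : ∀ h : H, h ∈ K ∨ h * z ∈ K ∨ h * t ∈ K ∨ h * (t * z) ∈ K) :
    Nat.card {p : H × H // orderOf p.1 = 2 ∧ orderOf p.2 = 2 ∧ z * p.1 * p.2 ∈ K}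
      = 2 * (Subgroup.centralizer ({t} : Set H)).index ^ 2 := by
  classical
  obtain ⟨Z, hZ⟩ : ∃ Z : H ⧸ K, Z = (z : H ⧸ K) := ⟨_, rfl⟩
  obtain ⟨T, hT⟩ : ∃ T : H ⧸ K, T = (t : H ⧸ K) := ⟨_, rfl⟩
  have hZZ : Z * Z = 1 := by rw [hZ, ← QuotientGroup.mk_mul, hz, QuotientGroup.mk_one]
  have hTT : T * T = 1 := by rw [hT, ← QuotientGroup.mk_mul, ht, QuotientGroup.mk_one]
  have hTZ : T * Z = Z * T := by
    rw [hT, hZ, ← QuotientGroup.mk_mul, ← QuotientGroup.mk_mul, hzc]
  have hZ1 : Z ≠ 1 := by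
    rw [hZ]; intro h; exact hzK ((QuotientGroup.eq_one_iff z).1 h)
  have hcov' : ∀ x : H ⧸ K, x = 1 ∨ x = Z ∨ x = T ∨ x = T * Z := by
    intro x
    obtain ⟨h, rfl⟩ := QuotientGroup.mk_surjective x
    rcases hcov h with h1 | h1 | h1 | h1
    · left; exact (QuotientGroup.eq_one_iff h).2 h1
    · right; left
      have := (QuotientGroup.eq_one_iff _).2 h1
      rw [QuotientGroup.mk_mul, ← hZ] at this
      calc (h : H ⧸ K) = h * (Z * Z) := by rw [hZZ, mul_one]
        _ = Z := by rw [← mul_assoc, this, one_mul]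
    · right; right; left
      have := (QuotientGroup.eq_one_iff _).2 h1
      rw [QuotientGroup.mk_mul, ← hT] at this
      calc (h : H ⧸ K) = h * (T * T) := by rw [hTT, mul_one]
        _ = T := by rw [← mul_assoc, this, one_mul]
    · right; right; right
      have := (QuotientGroup.eq_one_iff _).2 h1
      rw [QuotientGroup.mk_mul, QuotientGroup.mk_mul, ← hT, ← hZ] at this
      calc (h : H ⧸ K) = h * ((T * Z) * (Z * T)) := by
            rw [mul_assoc, ← mul_assoc Z, hZZ, one_mul, hTT, mul_one]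
        _ = T * Z := by rw [← mul_assoc, this, one_mul, hTZ]
  have hsq : ∀ x : H ⧸ K, x * x = 1 := by
    intro x
    rcases hcov' x with rfl | rfl | rfl | rfl
    · simp
    · exact hZZ
    · exact hTT
    · calc T * Z * (T * Z) = T * Z * (Z * T) := by rw [hTZ]
        _ = 1 := by rw [mul_assoc, ← mul_assoc Z, hZZ, one_mul, hTT]
  have hcomm : ∀ x y : H ⧸ K, x * y = y * x := by
    intro x y
    have h1 : (x * y)⁻¹ = x * y := inv_eq_of_mul_eq_one_left (hsq _)
    have h2 : x⁻¹ = x := inv_eq_of_mul_eq_one_left (hsq _)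
    have h3 : y⁻¹ = y := inv_eq_of_mul_eq_one_left (hsq _)
    rw [← h1, mul_inv_rev, h2, h3]
  have htz : (t * z) * (t * z) = 1 := by
    calc t * z * (t * z) = t * (z * t) * z := by group
      _ = t * (t * z) * z := by rw [hzc t]
      _ = (t * t) * (z * z) := by group
      _ = 1 := by rw [ht, hz, one_mul]
  have hA := isConj_iff_coset K hK hcomm ht htK
  have hA' := isConj_iff_coset K hK hcomm htz htzK
  have hnK : ∀ u : H, orderOf u = 2 → (u : H ⧸ K) ≠ 1 := by
    intro u hu h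
    have huK := (QuotientGroup.eq_one_iff u).1 h
    apply hK
    have : orderOf (⟨u, huK⟩ : K) = 2 := (Subgroup.orderOf_mk u huK).trans hu
    rw [← this]
    exact orderOf_dvd_natCard _
  have key : ∀ p : H × H, (orderOf p.1 = 2 ∧ orderOf p.2 = 2 ∧ z * p.1 * p.2 ∈ K) ↔
      ((IsConj t p.1 ∧ IsConj (t * z) p.2) ∨ (IsConj (t * z) p.1 ∧ IsConj t p.2)) := by
    rintro ⟨u, v⟩
    simp only [hA, hA', QuotientGroup.mk_mul, ← hT, ← hZ]
    rw [← QuotientGroup.eq_one_iff, QuotientGroup.mk_mul, QuotientGroup.mk_mul, ← hZ]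
    constructor
    · rintro ⟨hu, hv, h⟩
      rcases hcov' (u : H ⧸ K) with h1 | h1 | h1 | h1
      · exact absurd h1 (hnK u hu)
      · rw [h1, hZZ, one_mul] at h
        exact absurd h (hnK v hv)
      · left
        refine ⟨⟨hu, h1⟩, hv, ?_⟩
        rw [h1] at h
        calc (v : H ⧸ K) = (T * Z) * (Z * T * v) := by
              rw [← mul_assoc, ← mul_assoc, mul_assoc T, hZZ, mul_one, hTT, one_mul]
          _ = T * Z := by rw [h, mul_one]
      · right
        refine ⟨⟨hu, h1⟩, hv, ?_⟩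
        rw [h1, hTZ, ← mul_assoc, hZZ, one_mul] at h
        calc (v : H ⧸ K) = T * (T * v) := by rw [← mul_assoc, hTT, one_mul]
          _ = T := by rw [h, mul_one]
    · rintro (⟨⟨hu, h1⟩, hv, h2⟩ | ⟨⟨hu, h1⟩, hv, h2⟩)
      · refine ⟨hu, hv, ?_⟩
        rw [h1, h2, mul_assoc, ← mul_assoc T, hTT, one_mul, hZZ]
      · refine ⟨hu, hv, ?_⟩
        rw [h1, h2, hTZ, ← mul_assoc, hZZ, one_mul, hTT]
  have hcen : Subgroup.centralizer ({t * z} : Set H) = Subgroup.centralizer ({t} : Set H) := by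
    ext x
    simp only [Subgroup.mem_centralizer_singleton_iff]
    constructor
    · intro h
      have : x * t * z = t * x * z := by
        rw [mul_assoc, h, mul_assoc, mul_assoc, hzc x]
      exact mul_right_cancel this
    · intro h
      rw [← mul_assoc, h, mul_assoc, hzc x, mul_assoc]
  rw [Nat.card_eq_fintype_card, Fintype.card_subtype]
  have e : Finset.univ.filter (fun p : H × H =>
      orderOf p.1 = 2 ∧ orderOf p.2 = 2 ∧ z * p.1 * p.2 ∈ K)
      = (Finset.univ.filter (fun h => IsConj t h)) ×ˢ (Finset.univ.filter (fun h => IsConj (t * z) h))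
        ∪ (Finset.univ.filter (fun h => IsConj (t * z) h)) ×ˢ (Finset.univ.filter (fun h => IsConj t h)) := by
    ext p
    simp only [Finset.mem_filter, Finset.mem_univ, true_and, Finset.mem_union, Finset.mem_product]
    exact key p
  rw [e, Finset.card_union_of_disjoint, Finset.card_product, Finset.card_product,
    Helper81Block.card_conj, Helper81Block.card_conj, hcen]
  · ring
  · rw [Finset.disjoint_left]
    rintro ⟨u, v⟩ h1 h2
    simp only [Finset.mem_filter, Finset.mem_univ, true_and, Finset.mem_product] at h1 h2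
    have e1 := ((hA u).1 h1.1).2
    have e2 := ((hA' u).1 h2.1).2
    rw [e1, QuotientGroup.mk_mul, ← hT, ← hZ] at e2
    apply hZ1
    calc Z = T * (T * Z) := by rw [← mul_assoc, hTT, one_mul]
      _ = 1 := by rw [← e2, hTT]

end cnt

section transfer

variable {G : Type*} [Group G]

theorem commute_of_prod {J u v k : G} (hJ : J * J = 1) (hu : u * u = 1) (hv : v * v = 1)
    (hJk : Commute J k) (hk : Odd (orderOf k)) (huv : u * v = (J * k)⁻¹) :
    u * J = J * u ∧ v * J = J * v := by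
  obtain ⟨c, hc⟩ : ∃ c, c = J * k := ⟨_, rfl⟩
  rw [← hc] at huv
  obtain ⟨m, hm⟩ := hk
  have hJinv : J⁻¹ = J := inv_eq_of_mul_eq_one_left hJ
  have huinv : u⁻¹ = u := inv_eq_of_mul_eq_one_left hu
  have hvinv : v⁻¹ = v := inv_eq_of_mul_eq_one_left hv
  have hJm : J ^ (orderOf k) = J := by
    rw [hm, pow_succ, pow_mul, pow_two, hJ, one_pow, one_mul]
  have hcm : c ^ (orderOf k) = J := by
    rw [hc, hJk.mul_pow, pow_orderOf_eq_one, mul_one, hJm]
  have hcvu : c = v * u := by
    have : c = (u * v)⁻¹ := by rw [huv, inv_inv]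
    rw [this, mul_inv_rev, huinv, hvinv]
  have hconj : u * c * u⁻¹ = c⁻¹ := by
    rw [← huv, hcvu]; group
  have h1 : u * J * u⁻¹ = J := by
    rw [← hcm, ← conj_pow, hconj, inv_pow, hcm, hJinv]
  have huJ : u * J = J * u := by
    calc u * J = u * J * u⁻¹ * u := by group
      _ = J * u := by rw [h1]
  refine ⟨huJ, ?_⟩
  have hcJ : c⁻¹ * J = J * c⁻¹ := by
    have : Commute J c := by rw [hc]; exact (Commute.refl J).mul_right hJk
    exact (this.inv_right).symm
  have hvv : v = u * c⁻¹ := by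
    rw [← huv, ← mul_assoc, hu, one_mul]
  rw [hvv, mul_assoc, hcJ, ← mul_assoc, huJ, mul_assoc]

theorem sum_card_eq [Finite G] (J : G) (hJ2 : orderOf J = 2)
    (hone : ∀ s t : G, orderOf s = 2 → orderOf t = 2 → IsConj s t)
    (K : Subgroup (Subgroup.centralizer ({J} : Set G))) [Fintype K] (hK : ¬ 2 ∣ Nat.card K) :
    ∑ k : K, Nat.card {p : G × G // IsConj J p.1 ∧ IsConj J p.2 ∧
        p.1 * p.2 = (J * ((k : Subgroup.centralizer ({J} : Set G)) : G))⁻¹}
      = Nat.card {p : Subgroup.centralizer ({J} : Set G) × Subgroup.centralizer ({J} : Set G) //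
          orderOf p.1 = 2 ∧ orderOf p.2 = 2 ∧
          (⟨J, Subgroup.mem_centralizer_singleton_iff.mpr rfl⟩ :
            Subgroup.centralizer ({J} : Set G)) * p.1 * p.2 ∈ K} := by
  classical
  have hJJ : J * J = 1 := by rw [← pow_two, ← hJ2]; exact pow_orderOf_eq_one J
  have hJinv : J⁻¹ = J := inv_eq_of_mul_eq_one_left hJJ
  have hord : ∀ u : G, IsConj J u → orderOf u = 2 := by
    intro u hu
    obtain ⟨c, rfl⟩ := isConj_iff.1 hu
    rw [← hJ2]; exact (MulAut.conj c).orderOf_eq J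
  have hsq : ∀ u : G, orderOf u = 2 → u * u = 1 := by
    intro u hu
    rw [← pow_two, ← hu]; exact pow_orderOf_eq_one u
  have hkodd : ∀ k : K, Odd (orderOf ((k : Subgroup.centralizer ({J} : Set G)) : G)) := by
    intro k
    rw [← Nat.not_even_iff_odd, even_iff_two_dvd, Subgroup.orderOf_coe, Subgroup.orderOf_coe]
    intro h
    exact hK (h.trans (orderOf_dvd_natCard _))
  have hkc : ∀ k : Subgroup.centralizer ({J} : Set G), Commute J (k : G) := by
    intro k
    exact (Subgroup.mem_centralizer_singleton_iff.mp k.2).symm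
  rw [← Nat.card_sigma]
  have hmem : ∀ x : (Σ k : K, {p : G × G // IsConj J p.1 ∧ IsConj J p.2 ∧
        p.1 * p.2 = (J * ((k : Subgroup.centralizer ({J} : Set G)) : G))⁻¹}),
      x.2.1.1 * J = J * x.2.1.1 ∧ x.2.1.2 * J = J * x.2.1.2 := by
    rintro ⟨k, ⟨u, v⟩, hu, hv, huv⟩
    exact commute_of_prod hJJ (hsq u (hord u hu)) (hsq v (hord v hv)) (hkc k) (hkodd k) huv
  apply Nat.card_congr
  refine Equiv.ofBijective (fun x => ⟨(⟨x.2.1.1, Subgroup.mem_centralizer_singleton_iff.mpr (hmem x).1⟩,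
    ⟨x.2.1.2, Subgroup.mem_centralizer_singleton_iff.mpr (hmem x).2⟩), ?_, ?_, ?_⟩) ⟨?_, ?_⟩
  · rw [Subgroup.orderOf_mk]; exact hord _ x.2.2.1
  · rw [Subgroup.orderOf_mk]; exact hord _ x.2.2.2.1
  · have : (⟨J, Subgroup.mem_centralizer_singleton_iff.mpr rfl⟩ :
            Subgroup.centralizer ({J} : Set G)) *
          ⟨x.2.1.1, Subgroup.mem_centralizer_singleton_iff.mpr (hmem x).1⟩ *
          ⟨x.2.1.2, Subgroup.mem_centralizer_singleton_iff.mpr (hmem x).2⟩
        = (x.1 : Subgroup.centralizer ({J} : Set G))⁻¹ := by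
      apply Subtype.ext
      show J * x.2.1.1 * x.2.1.2 = ((x.1 : Subgroup.centralizer ({J} : Set G)) : G)⁻¹
      rw [mul_assoc, x.2.2.2.2, mul_inv_rev, hJinv, ← mul_assoc, ((hkc x.1).inv_right).eq, mul_assoc,
        hJJ, mul_one]
    rw [this]
    exact K.inv_mem x.1.2
  · rintro ⟨k, ⟨u, v⟩, hu, hv, huv⟩ ⟨k', ⟨u', v'⟩, hu', hv', huv'⟩ h
    simp only [Subtype.mk.injEq, Prod.mk.injEq] at h
    obtain ⟨rfl, rfl⟩ := h
    have hk : k = k' := by
      apply Subtype.ext
      apply Subtype.ext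
      have := huv.symm.trans huv'
      exact mul_left_cancel (inv_injective this)
    subst hk
    rfl
  · rintro ⟨⟨u, v⟩, hu, hv, h⟩
    refine ⟨⟨⟨_, K.inv_mem h⟩, ⟨((u : G), (v : G)), ?_, ?_, ?_⟩⟩, rfl⟩
    · exact hone _ _ hJ2 (by rw [Subgroup.orderOf_coe]; exact hu)
    · exact hone _ _ hJ2 (by rw [Subgroup.orderOf_coe]; exact hv)
    · show (u : G) * (v : G) = (J * (J * (u : G) * (v : G))⁻¹)⁻¹
      have h1 := (hkc u).eq
      have h2 := (hkc v).eq
      rw [mul_inv_rev, inv_inv, hJinv, mul_assoc, mul_assoc, ← h2, ← mul_assoc (u : G), ← h1,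
        mul_assoc, ← mul_assoc, hJJ, one_mul]

end transfer

end Cfsg.Agent.Lib.Helper78Klein3
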