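import Mathlib
import Cfsg.Prelude.Def_Blocks
import Cfsg.Agent.Lib.Helper78Klein
import Cfsg.Agent.Lib.Helper78Klein3
import Cfsg.Agent.S0840

set_option autoImplicit false

/-! Brauer's order formula for groups with Klein four Sylow 2-subgroups and one class of
involutions. -/

namespace Cfsg.Agent.Lib.Helper78Klein4

open Cfsg
open Cfsg.Agent.Lib.Helper81Local Cfsg.Agent.Lib.Helper81Base Cfsg.Agent.Lib.Helper81BB
  Cfsg.Agent.Lib.Helper81Block Cfsg.Agent.Lib.Helper81Orth
  Cfsg.Agent.Lib.Helper78Klein Cfsg.Agent.Lib.Helper78Klein3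
open scoped ComplexConjugate

section grp

variable {G : Type*} [Group G] [Finite G]

/-- the elements of a Klein four Sylow subgroup -/
theorem mem_klein_iff (P : Sylow 2 G) (hP : IsKleinFour (P : Subgroup G)) {J t : G}
    (hJ : J ∈ (P : Subgroup G)) (ht : t ∈ (P : Subgroup G)) (hJ1 : J ≠ 1) (ht1 : t ≠ 1)
    (htJ : t ≠ J) (x : G) : x ∈ (P : Subgroup G) ↔ x = 1 ∨ x = J ∨ x = t ∨ x = t * J := by
  classical
  have := Fintype.ofFinite (P : Subgroup G)
  constructor
  · intro hx
    have h := IsKleinFour.eq_finset_univ (G := (P : Subgroup G)) (x := ⟨t, ht⟩) (y := ⟨J, hJ⟩)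
      (fun h => ht1 (congrArg Subtype.val h)) (fun h => hJ1 (congrArg Subtype.val h))
      (fun h => htJ (congrArg Subtype.val h))
    have hx' : (⟨x, hx⟩ : (P : Subgroup G)) ∈ (Finset.univ : Finset (P : Subgroup G)) :=
      Finset.mem_univ _
    rw [← h] at hx'
    simp only [Finset.mem_insert, Finset.mem_singleton, Subtype.ext_iff, Subgroup.coe_mul,
      Subgroup.coe_one] at hx'
    tauto
  · rintro (rfl | rfl | rfl | rfl)
    · exact Subgroup.one_mem _
    · exact hJ
    · exact ht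
    · exact Subgroup.mul_mem _ ht hJ

theorem exists_third (P : Sylow 2 G) (hP : IsKleinFour (P : Subgroup G)) (J : G) :
    ∃ t ∈ (P : Subgroup G), t ≠ 1 ∧ t ≠ J := by
  classical
  have := Fintype.ofFinite (P : Subgroup G)
  by_contra hcon
  push Not at hcon
  have hsub : (Finset.univ : Finset (P : Subgroup G)) ⊆
      (Finset.univ.filter (fun x : (P : Subgroup G) => (x : G) = 1 ∨ (x : G) = J)) := by
    intro x _
    simp only [Finset.mem_filter, Finset.mem_univ, true_and]
    by_cases h : (x : G) = 1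
    · left; exact h
    · right; exact hcon x x.2 h
  have h4 : (Finset.univ : Finset (P : Subgroup G)).card = 4 := by
    rw [Finset.card_univ, ← Nat.card_eq_fintype_card]; exact hP.card_four
  have h2 : (Finset.univ.filter (fun x : (P : Subgroup G) => (x : G) = 1 ∨ (x : G) = J)).card ≤ 2 := by
    rw [Finset.filter_or]
    refine (Finset.card_union_le _ _).trans ?_
    have a1 : (Finset.univ.filter (fun x : (P : Subgroup G) => (x : G) = 1)).card ≤ 1 := by
      rw [Finset.card_le_one]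
      intro a ha b hb
      simp only [Finset.mem_filter, Finset.mem_univ, true_and] at ha hb
      exact Subtype.ext (ha.trans hb.symm)
    have a2 : (Finset.univ.filter (fun x : (P : Subgroup G) => (x : G) = J)).card ≤ 1 := by
      rw [Finset.card_le_one]
      intro a ha b hb
      simp only [Finset.mem_filter, Finset.mem_univ, true_and] at ha hb
      exact Subtype.ext (ha.trans hb.symm)
    omega
  have := Finset.card_le_card hsub
  omega

end grp

section grp2

variable {G : Type*} [Group G] [Finite G]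

theorem card_pairs_centralizer (P : Sylow 2 G) (hP : IsKleinFour (P : Subgroup G)) {J : G}
    (hJ : J ∈ (P : Subgroup G)) (hJ2 : orderOf J = 2)
    (K : Subgroup (Subgroup.centralizer ({J} : Set G))) [K.Normal] (hK : ¬ 2 ∣ Nat.card K)
    (hcompl : K.IsComplement' ((P : Subgroup G).subgroupOf (Subgroup.centralizer ({J} : Set G)))) :
    Nat.card {p : Subgroup.centralizer ({J} : Set G) × Subgroup.centralizer ({J} : Set G) //
          orderOf p.1 = 2 ∧ orderOf p.2 = 2 ∧
          (⟨J, Subgroup.mem_centralizer_singleton_iff.mpr rfl⟩ :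
            Subgroup.centralizer ({J} : Set G)) * p.1 * p.2 ∈ K}
        * Nat.card (Subgroup.centralizer ((P : Subgroup G) : Set G)) ^ 2
      = 2 * Nat.card (Subgroup.centralizer ({J} : Set G)) ^ 2 := by
  classical
  have := Fintype.ofFinite (Subgroup.centralizer ({J} : Set G))
  have hJ1 : J ≠ 1 := by
    rintro rfl
    simp at hJ2
  obtain ⟨t, ht, ht1, htJ⟩ := exists_third P hP J
  have hmemP := mem_klein_iff P hP hJ ht hJ1 ht1 htJ
  have hle := le_centralizer_of_klein P hP hJ
  have hsqP : ∀ x ∈ (P : Subgroup G), x * x = 1 := by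
    intro x hx
    exact congrArg Subtype.val (IsKleinFour.mul_self (⟨x, hx⟩ : (P : Subgroup G)))
  obtain ⟨z, hz⟩ : ∃ z : Subgroup.centralizer ({J} : Set G),
    z = ⟨J, Subgroup.mem_centralizer_singleton_iff.mpr rfl⟩ := ⟨_, rfl⟩
  obtain ⟨t', ht'⟩ : ∃ t' : Subgroup.centralizer ({J} : Set G), t' = ⟨t, hle ht⟩ := ⟨_, rfl⟩
  have hzv : (z : G) = J := by rw [hz]
  have htv : (t' : G) = t := by rw [ht']
  rw [← hz]
  have hnotK : ∀ x : Subgroup.centralizer ({J} : Set G), x * x = 1 → x ≠ 1 → x ∉ K := by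
    intro x hxx hx1 hxK
    apply hK
    have h2 : orderOf x = 2 := orderOf_eq_prime (by rw [pow_two]; exact hxx) hx1
    have : orderOf (⟨x, hxK⟩ : K) = 2 := (Subgroup.orderOf_mk x hxK).trans h2
    rw [← this]
    exact orderOf_dvd_natCard _
  have hzz : z * z = 1 := Subtype.ext (by simp only [Subgroup.coe_mul, hzv, Subgroup.coe_one]; exact hsqP J hJ)
  have htt : t' * t' = 1 := Subtype.ext (by simp only [Subgroup.coe_mul, htv, Subgroup.coe_one]; exact hsqP t ht)
  have hzc : ∀ g : Subgroup.centralizer ({J} : Set G), g * z = z * g := by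
    intro g
    apply Subtype.ext
    simp only [Subgroup.coe_mul, hzv]
    exact Subgroup.mem_centralizer_singleton_iff.mp g.2
  have htz : (t' * z) * (t' * z) = 1 := by
    apply Subtype.ext
    simp only [Subgroup.coe_mul, hzv, htv, Subgroup.coe_one]
    exact hsqP _ (Subgroup.mul_mem _ ht hJ)
  have htz1 : t' * z ≠ 1 := by
    intro h
    have h1 : t * J = 1 := by
      have := congrArg Subtype.val h
      simpa only [Subgroup.coe_mul, hzv, htv, Subgroup.coe_one] using this
    apply htJ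
    calc t = t * (J * J) := by rw [hsqP J hJ, mul_one]
      _ = J := by rw [← mul_assoc, h1, one_mul]
  have hcov : ∀ h : Subgroup.centralizer ({J} : Set G),
      h ∈ K ∨ h * z ∈ K ∨ h * t' ∈ K ∨ h * (t' * z) ∈ K := by
    intro h
    obtain ⟨⟨k, q⟩, hkq, _⟩ := (Subgroup.isComplement'_def.1 hcompl).existsUnique h
    simp only at hkq
    have hq : ((q : Subgroup.centralizer ({J} : Set G)) : G) ∈ (P : Subgroup G) :=
      Subgroup.mem_subgroupOf.1 q.2
    have hqq : (q : Subgroup.centralizer ({J} : Set G)) * q = 1 := Subtype.ext (hsqP _ hq)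
    have hhq : h * (q : Subgroup.centralizer ({J} : Set G)) ∈ K := by
      rw [← hkq, mul_assoc, hqq, mul_one]; exact k.2
    rcases (hmemP _).1 hq with h1 | h1 | h1 | h1
    · left
      have : (q : Subgroup.centralizer ({J} : Set G)) = 1 := Subtype.ext h1
      rwa [this, mul_one] at hhq
    · right; left
      have : (q : Subgroup.centralizer ({J} : Set G)) = z := Subtype.ext (h1.trans hzv.symm)
      rwa [this] at hhq
    · right; right; left
      have : (q : Subgroup.centralizer ({J} : Set G)) = t' := Subtype.ext (h1.trans htv.symm)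
      rwa [this] at hhq
    · right; right; right
      have : (q : Subgroup.centralizer ({J} : Set G)) = t' * z := by
        apply Subtype.ext
        rw [h1, Subgroup.coe_mul, hzv, htv]
      rwa [this] at hhq
  have hmain := card_pairs K hK hzz hzc htt
    (hnotK z hzz (fun h => hJ1 (by rw [← hzv, h]; rfl)))
    (hnotK t' htt (fun h => ht1 (by rw [← htv, h]; rfl))) (hnotK _ htz htz1) hcov
  rw [hmain]
  have hcen : Nat.card (Subgroup.centralizer ({t'} : Set (Subgroup.centralizer ({J} : Set G))))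
      = Nat.card (Subgroup.centralizer ((P : Subgroup G) : Set G)) := by
    rw [← Subgroup.card_map_of_injective (Subgroup.subtype_injective
      (Subgroup.centralizer ({J} : Set G)))]
    congr 2
    ext x
    simp only [Subgroup.mem_map, Subgroup.mem_centralizer_singleton_iff, Subgroup.coe_subtype]
    constructor
    · rintro ⟨y, hy, rfl⟩
      rw [Subgroup.mem_centralizer_iff]
      intro w hw
      have hyJ : (y : G) * J = J * y := Subgroup.mem_centralizer_singleton_iff.mp y.2
      have hyt : (y : G) * t = t * y := by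
        have := congrArg Subtype.val hy
        simpa only [Subgroup.coe_mul, htv] using this
      rcases (hmemP w).1 hw with rfl | rfl | rfl | rfl
      · simp
      · exact hyJ.symm
      · exact hyt.symm
      · rw [mul_assoc, ← hyJ, ← mul_assoc, ← hyt, mul_assoc]
    · intro hx
      rw [Subgroup.mem_centralizer_iff] at hx
      refine ⟨⟨x, Subgroup.mem_centralizer_singleton_iff.mpr (hx J hJ).symm⟩, ?_, rfl⟩
      apply Subtype.ext
      simp only [Subgroup.coe_mul, htv]
      exact (hx t ht).symm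
  rw [← hcen, ← Subgroup.index_mul_card
    (Subgroup.centralizer ({t'} : Set (Subgroup.centralizer ({J} : Set G))))]
  ring

end grp2

section formula

variable {G : Type*} [Group G] [Fintype G] {M : Ideal AlgInt}

/-- Brauer's order formula, raw form. -/
theorem order_formula_raw (hM : IsPModular 2 M) (P : Sylow 2 G)
    (hP : IsKleinFour (P : Subgroup G))
    (hone : ∀ s t : G, orderOf s = 2 → orderOf t = 2 → IsConj s t) {J : G}
    (hJ : J ∈ (P : Subgroup G)) (hJ2 : orderOf J = 2) [DecidablePred (· ∈ principalBlock M G)] :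
    (Nat.card G : ℂ) * (Nat.card (Subgroup.centralizer ((P : Subgroup G) : Set G)) : ℂ) ^ 2 *
      ∑ χ : IrrCharacter G, (if χ ∈ principalBlock M G then
        (χ : G → ℂ) J ^ 3 / (χ : G → ℂ) 1 else 0)
      = 8 * (Nat.card (Subgroup.centralizer ({J} : Set G)) : ℂ) ^ 3 := by
  classical
  have : Fact (Nat.Prime 2) := ⟨Nat.prime_two⟩
  have hJ1 : J ≠ 1 := by
    rintro rfl
    simp at hJ2
  obtain ⟨K, hKn, hK, hreg, hcompl, hcard⟩ := exists_compl_centralizer P hP hJ hJ1
  let _ : Fintype K := Fintype.ofFinite K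
  have hstar := fun χ : IrrCharacter G => star hM J ⟨1, by rw [hJ2, pow_one]⟩ K hK hreg χ
  have hK0 : (Nat.card K : ℂ) ≠ 0 := card_ne_zero
  have hstar' : ∀ χ : IrrCharacter G,
      ∑ k : K, (χ : G → ℂ) (J * ((k : Subgroup.centralizer ({J} : Set G)) : G))
        = (Nat.card K : ℂ) * (if χ ∈ principalBlock M G then (χ : G → ℂ) J else 0) := by
    intro χ
    rw [← hstar χ, ← mul_assoc, mul_inv_cancel₀ hK0, one_mul]
  have hnJ : Nat.card {x : G // IsConj J x} = (Subgroup.centralizer ({J} : Set G)).index := by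
    rw [Nat.card_eq_fintype_card, Fintype.card_subtype, card_conj]
  have h840 : ∀ k : K, (Nat.card {p : G × G // IsConj J p.1 ∧ IsConj J p.2 ∧
        p.1 * p.2 = (J * ((k : Subgroup.centralizer ({J} : Set G)) : G))⁻¹} : ℂ)
      = ((Subgroup.centralizer ({J} : Set G)).index : ℂ) *
        ((Subgroup.centralizer ({J} : Set G)).index : ℂ) / (Nat.card G : ℂ) *
        ∑ χ : IrrCharacter G, (χ : G → ℂ) J * (χ : G → ℂ) J / (χ : G → ℂ) 1 *
          (χ : G → ℂ) (J * ((k : Subgroup.centralizer ({J} : Set G)) : G)) := by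
    intro k
    rw [Cfsg.Agent.S0840.result J J, hnJ, finsum_eq_sum_of_fintype]
    congr 1
    apply Finset.sum_congr rfl
    intro χ _
    rw [irr_inv, Complex.conj_conj]
    ring
  have hsum := sum_card_eq J hJ2 hone K hK
  have hpairs := card_pairs_centralizer P hP hJ hJ2 K hK hcompl
  rw [← hsum] at hpairs
  have hpairsC := congrArg (Nat.cast : ℕ → ℂ) hpairs
  push_cast at hpairsC
  simp only [h840] at hpairsC
  rw [← Finset.mul_sum, Finset.sum_comm] at hpairsC
  simp only [← Finset.mul_sum, hstar'] at hpairsC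
  obtain ⟨S, hS⟩ : ∃ S : ℂ, S = ∑ χ : IrrCharacter G, (if χ ∈ principalBlock M G then
        (χ : G → ℂ) J ^ 3 / (χ : G → ℂ) 1 else 0) := ⟨_, rfl⟩
  have hS' : ∑ χ : IrrCharacter G, (χ : G → ℂ) J * (χ : G → ℂ) J / (χ : G → ℂ) 1 *
      ((Nat.card K : ℂ) * (if χ ∈ principalBlock M G then (χ : G → ℂ) J else 0))
      = (Nat.card K : ℂ) * S := by
    rw [hS, Finset.mul_sum]
    apply Finset.sum_congr rfl
    intro χ _
    split_ifs
    · ring
    · ring
  rw [hS'] at hpairsC
  rw [← hS]
  have hidx := Subgroup.index_mul_card (Subgroup.centralizer ({J} : Set G))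
  have hidxC : ((Subgroup.centralizer ({J} : Set G)).index : ℂ) *
      (Nat.card (Subgroup.centralizer ({J} : Set G)) : ℂ) = (Nat.card G : ℂ) := by
    exact_mod_cast hidx
  have hcardC : (Nat.card K : ℂ) * 4 = (Nat.card (Subgroup.centralizer ({J} : Set G)) : ℂ) := by
    exact_mod_cast hcard
  have hc0 : (Nat.card (Subgroup.centralizer ({J} : Set G)) : ℂ) ≠ 0 := card_ne_zero
  have hG0 : (Nat.card G : ℂ) ≠ 0 := card_ne_zero
  generalize (Nat.card G : ℂ) = a at *
  generalize (Nat.card (Subgroup.centralizer ({J} : Set G)) : ℂ) = c at *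
  generalize (Nat.card (Subgroup.centralizer ((P : Subgroup G) : Set G)) : ℂ) = d at *
  generalize ((Subgroup.centralizer ({J} : Set G)).index : ℂ) = n at *
  generalize (Nat.card K : ℂ) = κ at *
  have hn0 : n ≠ 0 := by
    rintro rfl
    rw [zero_mul] at hidxC
    exact hG0 hidxC.symm
  subst hidxC
  have e1 : n * n / (n * c) * (κ * S) * c = n * κ * S := by
    field_simp
  have e2 : n * κ * S * d ^ 2 = 2 * c ^ 3 := by
    rw [← e1]
    linear_combination c * hpairsC
  linear_combination 4 * e2 - n * d ^ 2 * S * hcardC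

end formula

section nocompl

variable {G : Type*} [Group G] [Finite G]

theorem klein_of_no_compl (g₀ : ℕ) (hg₀ : Odd g₀) (hG : Nat.card G = 4 * g₀)
    (hnc : ¬ ∃ N : Subgroup G, N.Normal ∧ Nat.card N = g₀) (P : Sylow 2 G) :
    IsKleinFour (P : Subgroup G) ∧
      ∀ s t : G, orderOf s = 2 → orderOf t = 2 → IsConj s t := by
  have : Fact (Nat.Prime 2) := ⟨Nat.prime_two⟩
  have hg0 : g₀ ≠ 0 := by
    rintro rfl
    simp at hg₀
  have h4 : Nat.card (P : Subgroup G) = 4 := by
    rw [Sylow.card_eq_multiplicity, hG, Nat.factorization_mul (by norm_num) hg0]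
    have e1 : (4 : ℕ).factorization 2 = 2 := by
      have : (4 : ℕ) = 2 ^ 2 := by norm_num
      rw [this, Nat.Prime.factorization_pow Nat.prime_two]
      simp
    have e2 : g₀.factorization 2 = 0 := by
      apply Nat.factorization_eq_zero_of_not_dvd
      rw [← even_iff_two_dvd, Nat.not_even_iff_odd]; exact hg₀
    simp [e1, e2]
  have hcompl : ∀ N : Subgroup G, N.Normal → N.IsComplement' (P : Subgroup G) → False := by
    intro N hN hc
    apply hnc
    refine ⟨N, hN, ?_⟩
    have := hc.card_mul_card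
    rw [h4, hG] at this
    omega
  have hncyc : ¬ IsCyclic (P : Subgroup G) := by
    intro hcyc
    have hmin : (Nat.card G).minFac = 2 := by
      rw [Nat.minFac_eq_two_iff, hG]
      exact Dvd.dvd.mul_right (by norm_num) _
    exact hcompl _ inferInstance (IsCyclic.isComplement' hmin hcyc)
  have hK : IsKleinFour (P : Subgroup G) :=
    { card_four := h4
      exponent_two := by
        have h1 : Monoid.exponent (P : Subgroup G) ∣ 2 := by
          apply Monoid.exponent_dvd_of_forall_pow_eq_one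
          intro x
          have hx : orderOf x ∣ 4 := by rw [← h4]; exact orderOf_dvd_natCard x
          have hx4 : orderOf x ≠ 4 := by
            intro h
            apply hncyc
            exact isCyclic_of_orderOf_eq_card x (by rw [h, h4])
          have hle : orderOf x ≤ 4 := Nat.le_of_dvd (by norm_num) hx
          have h2 : orderOf x ∣ 2 := by
            interval_cases (orderOf x) <;> simp_all
          exact orderOf_dvd_iff_pow_eq_one.1 h2
        rcases (Nat.dvd_prime Nat.prime_two).1 h1 with h | h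
        · exfalso
          have hs : Subsingleton (P : Subgroup G) := Monoid.exp_eq_one_iff.1 h
          have : Nat.card (P : Subgroup G) = 1 := Nat.card_eq_one_iff_unique.2 ⟨hs, ⟨1⟩⟩
          omega
        · exact h }
  refine ⟨hK, ?_⟩
  rcases Helper5Klein.cases_klein P hK with ⟨hN, _⟩ | ⟨_, h1⟩
  · exact (hcompl _ inferInstance (MonoidHom.ker_transferSylow_isComplement' P hN)).elim
  · intro s t hs ht
    obtain ⟨hsub, _⟩ := Nat.card_eq_one_iff_unique.1 h1
    have := hsub.elim (⟨ConjClasses.mk s, s, hs, rfl⟩ : Helper5Klein.InvClasses G)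
      ⟨ConjClasses.mk t, t, ht, rfl⟩
    exact ConjClasses.mk_eq_mk_iff_isConj.1 (congrArg Subtype.val this)

end nocompl

section rel

variable {G : Type*} [Group G] [Finite G] {M : Ideal AlgInt}

omit [Finite G] in
theorem iff_of_eq {χ₁ χ₂ χ₃ : IrrCharacter G}
    (hB : principalBlock M G = {χ : IrrCharacter G | (χ : G → ℂ) = (fun _ => 1) ∨ χ = χ₁ ∨
      χ = χ₂ ∨ χ = χ₃}) (χ : IrrCharacter G) :
    χ ∈ principalBlock M G ↔ χ = Helper82Linear.irrOne G ∨ χ = χ₁ ∨ χ = χ₂ ∨ χ = χ₃ := by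
  rw [hB]
  have : χ = Helper82Linear.irrOne G ↔ (χ : G → ℂ) = fun _ => 1 := Subtype.ext_iff
  rw [this]
  rfl

/-- the two basic relations between the degrees in the principal block. -/
theorem klein_relations (hM : IsPModular 2 M) (P : Sylow 2 G)
    (hP : IsKleinFour (P : Subgroup G))
    (hone : ∀ s t : G, orderOf s = 2 → orderOf t = 2 → IsConj s t) {J : G}
    (hJ : J ∈ (P : Subgroup G)) (hJ2 : orderOf J = 2) (χ₁ χ₂ χ₃ : IrrCharacter G) (ε₁ ε₂ ε₃ : ℤ)
    (hB : principalBlock M G = {χ : IrrCharacter G | (χ : G → ℂ) = (fun _ => 1) ∨ χ = χ₁ ∨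
      χ = χ₂ ∨ χ = χ₃})
    (hdist : (χ₁ : G → ℂ) ≠ (fun _ => 1) ∧ (χ₂ : G → ℂ) ≠ (fun _ => 1) ∧
      (χ₃ : G → ℂ) ≠ (fun _ => 1) ∧ χ₁ ≠ χ₂ ∧ χ₁ ≠ χ₃ ∧ χ₂ ≠ χ₃)
    (hε : (ε₁ = 1 ∨ ε₁ = -1) ∧ (ε₂ = 1 ∨ ε₂ = -1) ∧ (ε₃ = 1 ∨ ε₃ = -1))
    (hval : (χ₁ : G → ℂ) J = ε₁ ∧ (χ₂ : G → ℂ) J = ε₂ ∧ (χ₃ : G → ℂ) J = ε₃) :
    (1 + ε₁ * (charDegree (χ₁ : G → ℂ) : ℤ) + ε₂ * (charDegree (χ₂ : G → ℂ) : ℤ)
        + ε₃ * (charDegree (χ₃ : G → ℂ) : ℤ) = 0) ∧
    ((Nat.card G : ℤ) * (Nat.card (Subgroup.centralizer ((P : Subgroup G) : Set G)) : ℤ) ^ 2 *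
      ((charDegree (χ₁ : G → ℂ) : ℤ) * charDegree (χ₂ : G → ℂ) * charDegree (χ₃ : G → ℂ)
        + ε₁ * charDegree (χ₂ : G → ℂ) * charDegree (χ₃ : G → ℂ)
        + ε₂ * charDegree (χ₁ : G → ℂ) * charDegree (χ₃ : G → ℂ)
        + ε₃ * charDegree (χ₁ : G → ℂ) * charDegree (χ₂ : G → ℂ))
      = 8 * (Nat.card (Subgroup.centralizer ({J} : Set G)) : ℤ) ^ 3 *
        ((charDegree (χ₁ : G → ℂ) : ℤ) * charDegree (χ₂ : G → ℂ) * charDegree (χ₃ : G → ℂ))) := by
  classical
  have := Fintype.ofFinite G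
  have hMp := hM.2.1.isPrime
  have hB0 : IsPBlock M (principalBlock M G) := ⟨Helper82Linear.irrOne G, rfl⟩
  have hiff := iff_of_eq hB
  obtain ⟨d1, d2, d3, d12, d13, d23⟩ := hdist
  have h11 : Helper82Linear.irrOne G ≠ χ₁ := fun h => d1 (by rw [← h]; rfl)
  have h12 : Helper82Linear.irrOne G ≠ χ₂ := fun h => d2 (by rw [← h]; rfl)
  have h13 : Helper82Linear.irrOne G ≠ χ₃ := fun h => d3 (by rw [← h]; rfl)
  obtain ⟨v1, v2, v3⟩ := hval
  have e1 : ∀ g, (Helper82Linear.irrOne G : G → ℂ) g = 1 := fun _ => rfl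
  have p1 : (charDegree (χ₁ : G → ℂ) : ℂ) ≠ 0 := by rw [charDegree_eq]; exact irr_one_ne_zero χ₁
  have p2 : (charDegree (χ₂ : G → ℂ) : ℂ) ≠ 0 := by rw [charDegree_eq]; exact irr_one_ne_zero χ₂
  have p3 : (charDegree (χ₃ : G → ℂ) : ℂ) ≠ 0 := by rw [charDegree_eq]; exact irr_one_ne_zero χ₃
  have c1 : ε₁ ^ 3 = ε₁ := by rcases hε.1 with h | h <;> rw [h] <;> norm_num
  have c2 : ε₂ ^ 3 = ε₂ := by rcases hε.2.1 with h | h <;> rw [h] <;> norm_num
  have c3 : ε₃ ^ 3 = ε₃ := by rcases hε.2.2 with h | h <;> rw [h] <;> norm_num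
  constructor
  · have horth := weak_block_orth hM hB0 (x := 1) (y := J)
      (by rw [orderOf_one]; norm_num) (by rw [hJ2])
    rw [sum_four (principalBlock M G) _ χ₁ χ₂ χ₃ h11 h12 h13 d12 d13 d23 hiff, e1, e1, v1, v2, v3,
      ← charDegree_eq χ₁, ← charDegree_eq χ₂, ← charDegree_eq χ₃] at horth
    simp only [map_one, map_intCast, mul_one] at horth
    have : ((1 + ε₁ * (charDegree (χ₁ : G → ℂ) : ℤ) + ε₂ * (charDegree (χ₂ : G → ℂ) : ℤ)
        + ε₃ * (charDegree (χ₃ : G → ℂ) : ℤ) : ℤ) : ℂ) = ((0 : ℤ) : ℂ) := by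
      push_cast
      linear_combination horth
    exact_mod_cast this
  · have hraw := order_formula_raw hM P hP hone hJ hJ2
    rw [sum_four (principalBlock M G) _ χ₁ χ₂ χ₃ h11 h12 h13 d12 d13 d23 hiff, e1, e1, v1, v2, v3,
      ← charDegree_eq χ₁, ← charDegree_eq χ₂, ← charDegree_eq χ₃] at hraw
    have c1' : (ε₁ : ℂ) ^ 3 = ε₁ := by exact_mod_cast c1
    have c2' : (ε₂ : ℂ) ^ 3 = ε₂ := by exact_mod_cast c2
    have c3' : (ε₃ : ℂ) ^ 3 = ε₃ := by exact_mod_cast c3
    rw [c1', c2', c3'] at hraw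
    have : (((Nat.card G : ℤ) * (Nat.card (Subgroup.centralizer ((P : Subgroup G) : Set G)) : ℤ) ^ 2 *
      ((charDegree (χ₁ : G → ℂ) : ℤ) * charDegree (χ₂ : G → ℂ) * charDegree (χ₃ : G → ℂ)
        + ε₁ * charDegree (χ₂ : G → ℂ) * charDegree (χ₃ : G → ℂ)
        + ε₂ * charDegree (χ₁ : G → ℂ) * charDegree (χ₃ : G → ℂ)
        + ε₃ * charDegree (χ₁ : G → ℂ) * charDegree (χ₂ : G → ℂ)) : ℤ) : ℂ)
      = ((8 * (Nat.card (Subgroup.centralizer ({J} : Set G)) : ℤ) ^ 3 *
        ((charDegree (χ₁ : G → ℂ) : ℤ) * charDegree (χ₂ : G → ℂ) * charDegree (χ₃ : G → ℂ)) : ℤ) : ℂ) := by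
      push_cast
      rw [← hraw]
      field_simp
    exact_mod_cast this

end rel

end Cfsg.Agent.Lib.Helper78Klein4
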