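import Mathlib
import Cfsg.Prelude.Def_Blocks
import Cfsg.Agent.Lib.Helper78Klein2
import Cfsg.Agent.Lib.Helper78Klein4
import Cfsg.Agent.Lib.Helper78FS
import Cfsg.Agent.Lib.Helper4Char3

set_option autoImplicit false

/-! Frobenius-Schur indicators in the principal 2-block of a group with Klein four Sylow
2-subgroups. -/

namespace Cfsg.Agent.Lib.Helper78Klein5

open Cfsg
open Cfsg.Agent.Lib.Helper81Local Cfsg.Agent.Lib.Helper81Base Cfsg.Agent.Lib.Helper81BB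
  Cfsg.Agent.Lib.Helper81Block Cfsg.Agent.Lib.Helper81Orth
  Cfsg.Agent.Lib.Helper78Klein Cfsg.Agent.Lib.Helper78Klein2 Cfsg.Agent.Lib.Helper78Klein3
  Cfsg.Agent.Lib.Helper78Klein4
open scoped ComplexConjugate

section fs

variable {G : Type*} [Group G] [Fintype G] {M : Ideal AlgInt}

omit [Fintype G] in
/-- no square is conjugate to `(J k)⁻¹`. -/
theorem not_isConj_sq [Finite G] (P : Sylow 2 G) (hP : IsKleinFour (P : Subgroup G)) {J k : G}
    (hJ2 : orderOf J = 2) (hJk : Commute J k) (hk : Odd (orderOf k)) (s : G) :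
    ¬ IsConj (s * s) (J * k)⁻¹ := by
  intro h
  obtain ⟨c, hc⟩ := isConj_iff.1 h
  have hJJ : J * J = 1 := by rw [← pow_two, ← hJ2]; exact pow_orderOf_eq_one J
  have hJinv : J⁻¹ = J := inv_eq_of_mul_eq_one_left hJJ
  obtain ⟨m, hm⟩ := hk
  have hJm : J ^ (orderOf k) = J := by
    rw [hm, pow_succ, pow_mul, pow_two, hJJ, one_pow, one_mul]
  have hcm : (J * k) ^ (orderOf k) = J := by
    rw [hJk.mul_pow, pow_orderOf_eq_one, mul_one, hJm]
  obtain ⟨y, hy⟩ : ∃ y, y = (c * s * c⁻¹) ^ (orderOf k) := ⟨_, rfl⟩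
  have hyy : y * y = J := by
    rw [hy, ← (Commute.refl (c * s * c⁻¹)).mul_pow]
    have : c * s * c⁻¹ * (c * s * c⁻¹) = c * (s * s) * c⁻¹ := by group
    rw [this, hc, inv_pow, hcm, hJinv]
  have hy4 : y ^ (2 ^ 2) = 1 := by
    have : y ^ (2 ^ 2) = (y * y) * (y * y) := by
      norm_num [pow_succ, mul_assoc]
    rw [this, hyy, hJJ]
  obtain ⟨j, _, hj⟩ := (Nat.dvd_prime_pow Nat.prime_two).1 (orderOf_dvd_of_pow_eq_one hy4)
  have h1 := sq_eq_one_of_klein P hP ⟨j, hj⟩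
  rw [hyy] at h1
  rw [h1, orderOf_one] at hJ2
  norm_num at hJ2

/-- the Frobenius-Schur indicator -/
noncomputable def nu (χ : IrrCharacter G) : ℂ :=
  (Nat.card G : ℂ)⁻¹ * ∑ s : G, (χ : G → ℂ) (s * s)

/-- the indicators of the principal block are orthogonal to the column of an involution. -/
theorem fs_relation (hM : IsPModular 2 M) (P : Sylow 2 G) (hP : IsKleinFour (P : Subgroup G))
    {J : G} (hJ : J ∈ (P : Subgroup G)) (hJ2 : orderOf J = 2)
    [DecidablePred (· ∈ principalBlock M G)] :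
    ∑ χ : IrrCharacter G, (if χ ∈ principalBlock M G then nu χ * (χ : G → ℂ) J else 0) = 0 := by
  classical
  have : Fact (Nat.Prime 2) := ⟨Nat.prime_two⟩
  have hJ1 : J ≠ 1 := by
    rintro rfl
    simp at hJ2
  obtain ⟨K, hKn, hK, hreg, hcompl, hcard⟩ := exists_compl_centralizer P hP hJ hJ1
  let _ : Fintype K := Fintype.ofFinite K
  have hstar := fun χ : IrrCharacter G => star hM J ⟨1, by rw [hJ2, pow_one]⟩ K hK hreg χ
  have e : ∀ χ : IrrCharacter G, (if χ ∈ principalBlock M G then nu χ * (χ : G → ℂ) J else 0)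
      = nu χ * ((Nat.card K : ℂ)⁻¹ *
        ∑ k : K, (χ : G → ℂ) (J * ((k : Subgroup.centralizer ({J} : Set G)) : G))) := by
    intro χ
    rw [hstar χ]
    split_ifs <;> simp
  simp only [e]
  have hkodd : ∀ k : K, Odd (orderOf ((k : Subgroup.centralizer ({J} : Set G)) : G)) := by
    intro k
    rw [← Nat.not_even_iff_odd, even_iff_two_dvd, Subgroup.orderOf_coe, Subgroup.orderOf_coe]
    intro h
    exact hK (h.trans (orderOf_dvd_natCard _))
  have hkc : ∀ k : Subgroup.centralizer ({J} : Set G), Commute J (k : G) := by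
    intro k
    exact (Subgroup.mem_centralizer_singleton_iff.mp k.2).symm
  have key : ∀ k : K, ∑ χ : IrrCharacter G,
      nu χ * (χ : G → ℂ) (J * ((k : Subgroup.centralizer ({J} : Set G)) : G)) = 0 := by
    intro k
    unfold nu
    have e2 : ∀ χ : IrrCharacter G, (Nat.card G : ℂ)⁻¹ * (∑ s : G, (χ : G → ℂ) (s * s)) *
        (χ : G → ℂ) (J * ((k : Subgroup.centralizer ({J} : Set G)) : G))
        = (Nat.card G : ℂ)⁻¹ * ∑ s : G, (χ : G → ℂ) (s * s) *
          conj ((χ : G → ℂ) (J * ((k : Subgroup.centralizer ({J} : Set G)) : G))⁻¹) := by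
      intro χ
      rw [irr_inv, Complex.conj_conj, mul_assoc, Finset.sum_mul]
    simp only [e2]
    rw [← Finset.mul_sum, Finset.sum_comm]
    have e3 : ∀ s : G, ∑ χ : IrrCharacter G, (χ : G → ℂ) (s * s) *
          conj ((χ : G → ℂ) (J * ((k : Subgroup.centralizer ({J} : Set G)) : G))⁻¹) = 0 := by
      intro s
      rw [irr_orth2, if_neg (not_isConj_sq P hP hJ2 (hkc k) (hkodd k) s)]
    simp only [e3, Finset.sum_const_zero, mul_zero]
  have e4 : ∀ χ : IrrCharacter G, nu χ * ((Nat.card K : ℂ)⁻¹ *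
        ∑ k : K, (χ : G → ℂ) (J * ((k : Subgroup.centralizer ({J} : Set G)) : G)))
      = (Nat.card K : ℂ)⁻¹ * ∑ k : K,
        nu χ * (χ : G → ℂ) (J * ((k : Subgroup.centralizer ({J} : Set G)) : G)) := by
    intro χ
    rw [Finset.mul_sum, Finset.mul_sum, Finset.mul_sum]
    apply Finset.sum_congr rfl
    intro k _
    ring
  simp only [e4]
  rw [← Finset.mul_sum, Finset.sum_comm]
  simp only [key, Finset.sum_const_zero, mul_zero]

end fs

section deg

variable {G : Type*} [Group G] [Fintype G] {M : Ideal AlgInt}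

theorem nu_irrOne : nu (Helper82Linear.irrOne G) = 1 := by
  unfold nu
  have : ∀ s : G, (Helper82Linear.irrOne G : G → ℂ) (s * s) = 1 := fun _ => rfl
  simp only [this, Finset.sum_const, Finset.card_univ, nsmul_eq_mul, mul_one]
  rw [← Nat.card_eq_fintype_card, inv_mul_cancel₀ card_ne_zero]

/-- indicator of a character with odd value at an involution -/
theorem nu_cases (χ : IrrCharacter G) {J : G} (hJ2 : orderOf J = 2)
    (hv : (χ : G → ℂ) J = 1 ∨ (χ : G → ℂ) J = -1) :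
    (nu χ = 0 ∧ ∃ s : G, ((χ : G → ℂ) s).im ≠ 0) ∨ nu χ = 1 := by
  obtain ⟨h1, h2⟩ := Helper83FS.irr_fs χ.2
  rcases h1 with h | h | h
  · left; exact ⟨h, h2.1 h⟩
  · right; exact h
  · exfalso
    obtain ⟨m, hm⟩ := Helper78FS.even_of_fs_neg χ.2 h
    obtain ⟨n, hn⟩ := add_involution χ hJ2
    rw [hm] at hn
    rcases hv with hv | hv
    · rw [hv] at hn
      have : (2 * (m : ℤ) + 1 : ℤ) = 2 * n := by exact_mod_cast hn
      omega
    · rw [hv] at hn
      have : ((2 * (m : ℤ) + -1 : ℤ) : ℂ) = ((2 * n : ℤ) : ℂ) := by push_cast; exact hn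
      have : (2 * (m : ℤ) + -1 : ℤ) = 2 * n := by exact_mod_cast this
      omega

theorem deg_eq (hM : IsPModular 2 M) (P : Sylow 2 G) (hP : IsKleinFour (P : Subgroup G))
    {J : G} (hJ : J ∈ (P : Subgroup G)) (hJ2 : orderOf J = 2) (χ₁ χ₂ χ₃ : IrrCharacter G)
    (hB : principalBlock M G = {χ : IrrCharacter G | (χ : G → ℂ) = (fun _ => 1) ∨ χ = χ₁ ∨
      χ = χ₂ ∨ χ = χ₃})
    (hdist : (χ₁ : G → ℂ) ≠ (fun _ => 1) ∧ (χ₂ : G → ℂ) ≠ (fun _ => 1) ∧
      (χ₃ : G → ℂ) ≠ (fun _ => 1) ∧ χ₁ ≠ χ₂ ∧ χ₁ ≠ χ₃ ∧ χ₂ ≠ χ₃)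
    (v1 : (χ₁ : G → ℂ) J = 1) (v2 : (χ₂ : G → ℂ) J = 1) (v3 : (χ₃ : G → ℂ) J = -1) :
    charDegree (χ₁ : G → ℂ) = charDegree (χ₂ : G → ℂ) := by
  classical
  have hMp := hM.2.1.isPrime
  have hiff := iff_of_eq hB
  obtain ⟨d1, d2, d3, d12, d13, d23⟩ := hdist
  have h11 : Helper82Linear.irrOne G ≠ χ₁ := fun h => d1 (by rw [← h]; rfl)
  have h12 : Helper82Linear.irrOne G ≠ χ₂ := fun h => d2 (by rw [← h]; rfl)
  have h13 : Helper82Linear.irrOne G ≠ χ₃ := fun h => d3 (by rw [← h]; rfl)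
  have e1 : ∀ g, (Helper82Linear.irrOne G : G → ℂ) g = 1 := fun _ => rfl
  have hfs := fs_relation hM P hP hJ hJ2
  rw [sum_four (principalBlock M G) _ χ₁ χ₂ χ₃ h11 h12 h13 d12 d13 d23 hiff, e1, v1, v2, v3,
    nu_irrOne] at hfs
  have c1 := nu_cases χ₁ hJ2 (Or.inl v1)
  have c2 := nu_cases χ₂ hJ2 (Or.inl v2)
  have c3 := nu_cases χ₃ hJ2 (Or.inr v3)
  have hnr : ∃ s : G, ((χ₁ : G → ℂ) s).im ≠ 0 := by
    rcases c1 with ⟨_, h⟩ | c1
    · exact h
    · exfalso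
      rcases c2 with ⟨c2, _⟩ | c2 <;> rcases c3 with ⟨c3, _⟩ | c3 <;> rw [c1, c2, c3] at hfs <;>
        norm_num at hfs
  obtain ⟨s, hs⟩ := hnr
  have hcj1 : Helper78Real2.cj (Helper82Linear.irrOne G) = Helper82Linear.irrOne G := by
    apply Subtype.ext; funext g
    rw [Helper78Real2.cj_apply, e1, map_one]
  have hmem : Helper78Real2.cj χ₁ ∈ principalBlock M G := by
    have h1 : SameBlock M (Helper82Linear.irrOne G : G → ℂ) (χ₁ : G → ℂ) :=
      (hiff χ₁).2 (Or.inr (Or.inl rfl))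
    have h2 := Helper78Real2.sameBlock_cj h1
    rw [hcj1] at h2
    exact h2
  rcases (hiff _).1 hmem with h | h | h | h
  · exfalso
    apply h11
    rw [← Helper78Real2.cj_cj χ₁, h, hcj1]
  · exfalso
    apply hs
    have := congrFun (congrArg Subtype.val h) s
    rw [Helper78Real2.cj_apply] at this
    exact Complex.conj_eq_iff_im.1 this
  · have h1 : ((charDegree (χ₁ : G → ℂ) : ℕ) : ℂ) = ((charDegree (χ₂ : G → ℂ) : ℕ) : ℂ) := by
      rw [charDegree_eq χ₂, ← h, Helper78Real2.cj_apply, ← charDegree_eq χ₁, Complex.conj_natCast]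
    exact_mod_cast h1
  · exfalso
    have := congrFun (congrArg Subtype.val h) J
    rw [Helper78Real2.cj_apply, v1, v3, map_one] at this
    norm_num at this

end deg

section dvd

variable {G : Type*} [Group G] [Fintype G]

theorem deg_dvd_index (χ : IrrCharacter G) {J : G}
    (hv : (χ : G → ℂ) J = 1 ∨ (χ : G → ℂ) J = -1) :
    charDegree (χ : G → ℂ) ∣ (Subgroup.centralizer ({J} : Set G)).index := by
  have h := irr_omega_integral χ J
  unfold centralChar at h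
  rw [← charDegree_eq] at h
  apply Helper4Char3.dvd_of_isIntegral_div _ _ (charDegree_pos χ).ne'
  rcases hv with hv | hv
  · rwa [hv, mul_one] at h
  · rw [hv, mul_neg, mul_one, neg_div] at h
    have := h.neg
    rwa [neg_neg] at this

/-- the arithmetic behind the `PSL(2,q)`-shape of the order formula -/
theorem arith (a c d n x q : ℕ) (hc : 0 < c) (hd : 0 < d) (hx : 0 < x) (hq : q = 2 * x + 1)
    (hn : n * c = a) (hxn : x ∣ n) (hqn : q ∣ n)
    (hR : a * d ^ 2 * (x + 1) ^ 2 = 4 * c ^ 3 * x * q) :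
    ∃ m : ℕ, 4 * c = m * d * (q + 1) ∧ 8 * a = m ^ 3 * d * (q ^ 3 - q) := by
  obtain ⟨n₁, hn₁⟩ := hxn
  obtain ⟨n₂, hn₂⟩ := hqn
  have h1 : n * d ^ 2 * (x + 1) ^ 2 = 4 * c ^ 2 * x * q := by
    have : c * (n * d ^ 2 * (x + 1) ^ 2) = c * (4 * c ^ 2 * x * q) := by
      rw [← hn] at hR
      linarith
    exact Nat.eq_of_mul_eq_mul_left hc this
  have hD : n * (d * (q + 1)) ^ 2 = q * x * (4 * c) ^ 2 := by
    rw [hq]
    have : n * (d * (2 * x + 1 + 1)) ^ 2 = 4 * (n * d ^ 2 * (x + 1) ^ 2) := by ring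
    rw [this, h1, hq]; ring
  have e1 : n₁ * (d * (q + 1)) ^ 2 = q * (4 * c) ^ 2 := by
    have : x * (n₁ * (d * (q + 1)) ^ 2) = x * (q * (4 * c) ^ 2) := by
      rw [hn₁] at hD
      linarith
    exact Nat.eq_of_mul_eq_mul_left hx this
  have hq0 : 0 < q := by omega
  have e2 : n₂ * (d * (q + 1)) ^ 2 = x * (4 * c) ^ 2 := by
    have : q * (n₂ * (d * (q + 1)) ^ 2) = q * (x * (4 * c) ^ 2) := by
      rw [hn₂] at hD
      linarith
    exact Nat.eq_of_mul_eq_mul_left hq0 this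
  have e3 : (4 * c) ^ 2 + 2 * n₂ * (d * (q + 1)) ^ 2 = n₁ * (d * (q + 1)) ^ 2 := by
    rw [e1, mul_assoc, e2, hq]; ring
  have hdvd2 : (d * (q + 1)) ^ 2 ∣ (4 * c) ^ 2 := by
    have h2 : (d * (q + 1)) ^ 2 ∣ (4 * c) ^ 2 + 2 * n₂ * (d * (q + 1)) ^ 2 := by
      rw [e3]; exact Dvd.intro_left _ rfl
    exact (Nat.dvd_add_left (Dvd.intro_left _ rfl)).1 h2
  have hdvd : d * (q + 1) ∣ 4 * c := (Nat.pow_dvd_pow_iff (by norm_num)).1 hdvd2
  obtain ⟨m, hm⟩ := hdvd
  refine ⟨m, by rw [hm]; ring, ?_⟩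
  have hm2 : 2 * c = m * d * (x + 1) := by
    rw [hq] at hm
    have : 2 * (2 * c) = 2 * (m * d * (x + 1)) := by
      calc 2 * (2 * c) = 4 * c := by ring
        _ = d * (2 * x + 1 + 1) * m := hm
        _ = 2 * (m * d * (x + 1)) := by ring
    omega
  have hq3 : q ^ 3 - q = 4 * x * q * (x + 1) := by
    have : q ^ 3 = 4 * x * q * (x + 1) + q := by rw [hq]; ring
    rw [this, Nat.add_sub_cancel]
  rw [hq3]
  have hpos : 0 < d ^ 2 * (x + 1) ^ 2 := by positivity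
  have : d ^ 2 * (x + 1) ^ 2 * (8 * a) = d ^ 2 * (x + 1) ^ 2 * (m ^ 3 * d * (4 * x * q * (x + 1))) := by
    calc d ^ 2 * (x + 1) ^ 2 * (8 * a) = 8 * (a * d ^ 2 * (x + 1) ^ 2) := by ring
      _ = 8 * (4 * c ^ 3 * x * q) := by rw [hR]
      _ = 4 * (2 * c) ^ 3 * x * q := by ring
      _ = 4 * (m * d * (x + 1)) ^ 3 * x * q := by rw [hm2]
      _ = d ^ 2 * (x + 1) ^ 2 * (m ^ 3 * d * (4 * x * q * (x + 1))) := by ring
  exact Nat.eq_of_mul_eq_mul_left hpos this

end dvd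

end Cfsg.Agent.Lib.Helper78Klein5
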