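import Mathlib
import Cfsg.Agent.Lib.Helper71OSDefs
import Cfsg.Agent.Lib.H71OsUniq
import Cfsg.Agent.S3278

/-!
# Project OS (S3421), piece `FpfV`  (est. 1.5 h)
The Klein four case of `Fpf`.
SKETCH. `C(t) = C(s)`, so `s` is central in `C(t)`; `C(t) = W ∪ W s` (`W` of index 2, `s ∈ C(t) ∖ W`), `W` commutative: `C(t)` is commutative.  `S ≤ C(t)` has 4 elements and is not cyclic (`t ≠ s` are two involutions, or: `x^2 = 1` for all its elements `1, t, s, t s`), so `IsKleinFour ↥S`; it is normal in the commutative `C(t)`; `S.relIndex C(t)` is odd (`S` is a Sylow 2-subgroup of `T`: `S.relIndex C(t) ∣ S.index`, `Sylow.not_dvd_index`).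
`Cfsg.Agent.S3278.result t hBS.ht S hS.hSC _ _ _ : Nonempty (T ≃* alternatingGroup (Fin 5))`.  `t x` has order `2 * orderOf x` (commuting, coprime orders).  In `alternatingGroup (Fin 5)` every element has order 1, 2, 3 or 5 (`decide`, cf. `a5_aux` in `Cfsg/Agent/Lib/H71NccSmall.lean`), so `orderOf x = 1`.
-/

set_option autoImplicit false
set_option linter.style.haveILetI false

namespace Cfsg.Agent.Lib.H71OsFpfV

open Cfsg.Agent.Lib.Helper71OS

theorem a5_orders : ∀ c : alternatingGroup (Fin 5), c ^ 2 = 1 ∨ c ^ 3 = 1 ∨ c ^ 5 = 1 := by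
  decide +kernel

variable {T : Type*} [Group T] [Finite T] {t : T} {W : Subgroup T}

omit [Finite T] in
theorem comm_centralizer (hBS : BS T t W) {s : T} (hsC : s ∈ Subgroup.centralizer ({t} : Set T)) (hsW : s ∉ W)
    (hCC : Subgroup.centralizer ({t} : Set T) = Subgroup.centralizer ({s} : Set T)) :
    ∀ c ∈ Subgroup.centralizer ({t} : Set T), ∀ d ∈ Subgroup.centralizer ({t} : Set T), c * d = d * c := by
  have hWc : ∀ a ∈ W, ∀ b ∈ W, a * b = b * a := by
    intro a ha b hb
    haveI := hBS.hcyc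
    have := IsCyclic.commGroup (α := W) |>.mul_comm ⟨a, ha⟩ ⟨b, hb⟩
    exact congrArg Subtype.val this
  have hscomm : ∀ e ∈ Subgroup.centralizer ({t} : Set T), s * e = e * s := by
    intro e he
    rw [hCC, Subgroup.mem_centralizer_iff] at he
    exact he s (Set.mem_singleton s)
  have hidx : (W.subgroupOf (Subgroup.centralizer ({t} : Set T))).index = 2 := hBS.hidx
  have key : ∀ c ∈ Subgroup.centralizer ({t} : Set T), ∃ w ∈ W, ∃ z ∈ Subgroup.centralizer ({t} : Set T),
      (∀ e ∈ Subgroup.centralizer ({t} : Set T), z * e = e * z) ∧ c = w * z := by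
    intro c hc
    by_cases hcW : c ∈ W
    · exact ⟨c, hcW, 1, Subgroup.one_mem _, by simp, by simp⟩
    · have h1 := Subgroup.mul_mem_iff_of_index_two hidx (a := ⟨c, hc⟩) (b := ⟨s, hsC⟩)
      have h2 : c * s ∈ W := by
        have : (⟨c, hc⟩ * ⟨s, hsC⟩ : Subgroup.centralizer ({t} : Set T)) ∈
            W.subgroupOf (Subgroup.centralizer ({t} : Set T)) := by
          rw [h1]
          simp only [Subgroup.mem_subgroupOf]
          exact ⟨fun h => absurd h hcW, fun h => absurd h hsW⟩
        simpa [Subgroup.mem_subgroupOf] using this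
      refine ⟨c * s, h2, s⁻¹, Subgroup.inv_mem _ hsC, ?_, by group⟩
      intro e he
      have := hscomm e he
      calc s⁻¹ * e = s⁻¹ * (e * s) * s⁻¹ := by group
        _ = s⁻¹ * (s * e) * s⁻¹ := by rw [this]
        _ = e * s⁻¹ := by group
  intro c hc d hd
  obtain ⟨w, hw, z, hzC, hz, rfl⟩ := key c hc
  obtain ⟨w', hw', z', hzC', hz', rfl⟩ := key d hd
  have e1 := hz w' (hBS.hle hw')
  have e2 := hz' w (hBS.hle hw)
  have e3 := hz z' hzC'
  have e4 := hWc w hw w' hw'
  calc w * z * (w' * z') = w * (z * w') * z' := by group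
    _ = w * (w' * z) * z' := by rw [e1]
    _ = (w * w') * (z * z') := by group
    _ = (w' * w) * (z' * z) := by rw [e4, e3]
    _ = w' * (w * z') * z := by group
    _ = w' * (z' * w) * z := by rw [e2]
    _ = w' * z' * (w * z) := by group

theorem klein_case [IsSimpleGroup T] (hna : ¬ IsMulCommutative T) (hBS : BS T t W) {S : Sylow 2 T} (hS : SY t W S)
    (hcard : Nat.card (S : Subgroup T) = 4) {s : T} (hsS : s ∈ (S : Subgroup T)) (hsW : s ∉ W) (hs : orderOf s = 2)
    (hCC : Subgroup.centralizer ({t} : Set T) = Subgroup.centralizer ({s} : Set T)) {x : T} (hxW : x ∈ W)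
    (hxo : Odd (orderOf x)) : x = 1 := by
  haveI : Fact (Nat.Prime 2) := ⟨Nat.prime_two⟩
  have hsC : s ∈ Subgroup.centralizer ({t} : Set T) := hS.hSC hsS
  have hcomm := comm_centralizer hBS hsC hsW hCC
  -- Klein four
  have hsq : ∀ a : (S : Subgroup T), a ^ 2 = 1 := by
    intro a
    have h4 : orderOf a ∣ 4 := by
      rw [← hcard]; exact orderOf_dvd_natCard a
    have h4' : orderOf a ∣ 2 ^ 2 := by simpa using h4
    obtain ⟨k, hk, hk2⟩ := (Nat.dvd_prime_pow Nat.prime_two).1 h4'
    interval_cases k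
    · rw [pow_zero, orderOf_eq_one_iff] at hk2
      rw [hk2]; simp
    · rw [pow_one] at hk2
      have := pow_orderOf_eq_one a
      rwa [hk2] at this
    · exfalso
      have hcyc : IsCyclic (S : Subgroup T) := by
        apply isCyclic_of_orderOf_eq_card a
        rw [hk2, hcard]; norm_num
      have := H71OsUniq.eq_of_orderOf_two hcyc hsS hS.htS hs hBS.ht
      exact hsW (this ▸ hBS.htW)
  have hK : IsKleinFour (S : Subgroup T) := by
    refine ⟨hcard, ?_⟩
    have h1 : Monoid.exponent (S : Subgroup T) ∣ 2 := Monoid.exponent_dvd_of_forall_pow_eq_one hsq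
    rcases (Nat.dvd_prime Nat.prime_two).1 h1 with h | h
    · exfalso
      rw [Monoid.exp_eq_one_iff] at h
      have := Nat.card_eq_one_iff_unique.2 ⟨h, ⟨1⟩⟩
      omega
    · exact h
  have hodd : ¬ 2 ∣ (S : Subgroup T).relIndex (Subgroup.centralizer ({t} : Set T)) := by
    intro h
    have h1 := Subgroup.relIndex_mul_index hS.hSC
    exact S.not_dvd_index (h1 ▸ Dvd.dvd.mul_right h _)
  have hn : ((S : Subgroup T).subgroupOf (Subgroup.centralizer ({t} : Set T))).Normal := by
    constructor
    intro n hn g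
    have : g * n * g⁻¹ = n := by
      apply Subtype.ext
      have := hcomm g g.2 n n.2
      simp only [Subgroup.coe_mul, Subgroup.coe_inv]
      rw [this]; group
    rw [this]; exact hn
  obtain ⟨e⟩ := Cfsg.Agent.S3278.result t hBS.ht (S : Subgroup T) hS.hSC hK hodd hn
  have hcm : Commute t x := by
    have := hBS.hle hxW
    rw [Subgroup.mem_centralizer_iff] at this
    exact this t (Set.mem_singleton t)
  have hcop : Nat.Coprime (orderOf t) (orderOf x) := by
    rw [hBS.ht]; exact (Nat.coprime_two_left).2 hxo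
  have ho : orderOf (t * x) = 2 * orderOf x := by
    rw [hcm.orderOf_mul_eq_mul_orderOf_of_coprime hcop, hBS.ht]
  have hpow : ∀ n : ℕ, (e (t * x)) ^ n = 1 → 2 * orderOf x ∣ n := by
    intro n hn
    rw [← map_pow, map_eq_one_iff e e.injective] at hn
    rw [← ho]; exact orderOf_dvd_of_pow_eq_one hn
  rw [← orderOf_eq_one_iff]
  rcases a5_orders (e (t * x)) with h | h | h
  · have := hpow 2 h
    have h2 : orderOf x ∣ 1 := by
      have : 2 * orderOf x ∣ 2 * 1 := by simpa using this
      exact Nat.dvd_of_mul_dvd_mul_left (by norm_num) this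
    exact Nat.dvd_one.1 h2
  · have := hpow 3 h
    have : 2 ∣ 3 := Dvd.dvd.trans (Dvd.intro _ rfl) this
    omega
  · have := hpow 5 h
    have : 2 ∣ 5 := Dvd.dvd.trans (Dvd.intro _ rfl) this
    omega

end Cfsg.Agent.Lib.H71OsFpfV
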