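import Mathlib
import Cfsg.Agent.Lib.Helper71OSDefs
import Cfsg.Agent.Lib.H71OsUniq
import Cfsg.Agent.S0225

/-!
# Project OS (S3421), piece `Inv`
There is an involution in `S ∖ W`.
-/

set_option autoImplicit false
set_option linter.style.haveILetI false

namespace Cfsg.Agent.Lib.H71OsInv

open Cfsg.Agent.Lib.Helper71OS

variable {T : Type*} [Group T] [Finite T] {t : T} {W : Subgroup T}

theorem exists_involution (hBS : BS T t W) (hR : Red T) {S : Sylow 2 T} (hS : SY t W S) :
    ∃ u ∈ (S : Subgroup T), u ∉ W ∧ orderOf u = 2 := by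
  by_contra hcon
  have huniq : ∀ u ∈ (S : Subgroup T), orderOf u = 2 → u = t := by
    intro u hu hu2
    have huW : u ∈ W := by
      by_contra h
      exact hcon ⟨u, hu, h, hu2⟩
    exact H71OsUniq.eq_of_orderOf_two hBS.hcyc huW hBS.htW hu2 hBS.ht
  have hrank : ∀ E : Subgroup T, ¬ IsKleinFour E := by
    intro E hE
    have hcard : Nat.card E = 4 := hE.card_four
    have hEp : IsPGroup 2 E := IsPGroup.of_card (n := 2) (by rw [hcard]; norm_num)
    obtain ⟨Q, hQ⟩ := hEp.exists_le_sylow
    obtain ⟨g, hg⟩ := MulAction.exists_smul_eq T Q S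
    have hconj : ∀ e ∈ E, g * e * g⁻¹ ∈ (S : Subgroup T) := by
      intro e he
      rw [← hg, Sylow.coe_subgroup_smul]
      have := Subgroup.smul_mem_pointwise_smul e (MulAut.conj g) (Q : Subgroup T) (hQ he)
      rwa [MulAut.smul_def, MulAut.conj_apply] at this
    have hsq : ∀ e ∈ E, e ^ 2 = 1 := by
      intro e he
      have h1 : (⟨e, he⟩ : E) ^ 2 = 1 := by
        rw [← hE.exponent_two]; exact Monoid.pow_exponent_eq_one _
      exact congrArg Subtype.val h1
    have key : ∀ e ∈ E, e = 1 ∨ e = g⁻¹ * t * g := by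
      intro e he
      by_cases h1 : e = 1
      · exact Or.inl h1
      · right
        have ho : orderOf e = 2 := orderOf_eq_prime (hsq e he) h1
        have ho' : orderOf (g * e * g⁻¹) = 2 := by
          rw [← ho]
          have := (MulAut.conj g).orderOf_eq e
          simpa using this
        have := huniq _ (hconj e he) ho'
        rw [← this]
        group
    have hsub : (E : Set T) ⊆ {1, g⁻¹ * t * g} := by
      intro e he
      rcases key e he with h | h
      · exact Or.inl h
      · exact Or.inr h
    have h2 : Nat.card E ≤ 2 := by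
      have h3 : Nat.card E = (E : Set T).ncard := rfl
      rw [h3]
      calc (E : Set T).ncard ≤ ({1, g⁻¹ * t * g} : Set T).ncard :=
            Set.ncard_le_ncard hsub (Set.toFinite _)
        _ ≤ ({g⁻¹ * t * g} : Set T).ncard + 1 := Set.ncard_insert_le _ _
        _ = 2 := by rw [Set.ncard_singleton]
    omega
  have heven : Even (Nat.card T) := by
    rw [even_iff_two_dvd, ← hBS.ht]
    exact orderOf_dvd_natCard t
  obtain ⟨z, hz2, N, hN, hNodd, hzN⟩ := Cfsg.Agent.S0225.result heven hrank
  have hNbot : N = ⊥ := hR.h2 N hN hNodd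
  have hzc : z ∈ Subgroup.center T := by
    rw [Subgroup.mem_center_iff]
    intro g
    have := hzN g
    rw [hNbot, Subgroup.mem_bot] at this
    have h2 : z * g = g * z := by
      calc z * g = (z * g * z⁻¹ * g⁻¹) * (g * z) := by group
        _ = g * z := by rw [this, one_mul]
    exact h2.symm
  rw [hR.h3, Subgroup.mem_bot] at hzc
  rw [hzc, orderOf_one] at hz2
  omega

end Cfsg.Agent.Lib.H71OsInv
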