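import Mathlib
import Cfsg.Agent.Lib.Helper71OSDefs
import Cfsg.Agent.S2475
import Cfsg.Agent.Lib.Helper6DkCor2

/-!
# Project OS (S3421), piece `Param`
`q` odd: the hypotheses of S3421 give `PS`.
-/

set_option autoImplicit false
set_option linter.style.haveILetI false

namespace Cfsg.Agent.Lib.H71OsParam

open Cfsg.Agent.Lib.Helper71OS

theorem ps_of_spectrum {F : Type*} [Field F] [Fintype F] (hF : 3 < Fintype.card F) (hodd : Odd (Fintype.card F))
    {G : Type*} [Group G] [Finite G]
    (hs : Set.range (orderOf : G → ℕ) = Set.range (orderOf : PSL2 F → ℕ))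
    (hc : Nat.card G = Nat.card (PSL2 F)) : ∃ p m₁ m₂ : ℕ, PS G p (Fintype.card F) m₁ m₂ := by
  obtain ⟨p, hchar⟩ := CharP.exists F
  haveI := hchar
  obtain ⟨n, hpp, hqn⟩ := FiniteField.card F p
  haveI : Fact p.Prime := ⟨hpp⟩
  obtain ⟨a, ha⟩ := hodd
  have hr := Cfsg.Agent.S2475.result (F := F) p (by omega)
  have hcard := Cfsg.Agent.Lib.Helper6DkCor.card_PSL2_odd (F := F) ⟨a, ha⟩
  have e1 : Fintype.card F - 1 = 2 * a := by omega
  have e2 : Fintype.card F + 1 = 2 * (a + 1) := by omega
  have hg : Nat.gcd 2 (2 * a) = 2 := Nat.gcd_eq_left (Dvd.intro a rfl)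
  rw [e1, e2, hg, Nat.mul_div_cancel_left _ (by norm_num), Nat.mul_div_cancel_left _ (by norm_num)]
    at hr
  rw [e1, e2] at hcard
  have hs' : Set.range (orderOf : G → ℕ) = {m : ℕ | m ∣ p ∨ m ∣ a ∨ m ∣ a + 1} := hs.trans hr
  have hord : ∀ g : G, orderOf g ∣ p ∨ orderOf g ∣ a ∨ orderOf g ∣ a + 1 := by
    intro g
    have : orderOf g ∈ Set.range (orderOf : G → ℕ) := ⟨g, rfl⟩
    rw [hs'] at this
    exact this
  have hA : ∃ w : G, orderOf w = a := by
    have : a ∈ Set.range (orderOf : G → ℕ) := by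
      rw [hs']; exact Or.inr (Or.inl dvd_rfl)
    exact this
  have hB : ∃ w : G, orderOf w = a + 1 := by
    have : a + 1 ∈ Set.range (orderOf : G → ℕ) := by
      rw [hs']; exact Or.inr (Or.inr dvd_rfl)
    exact this
  have hp2 : p ≠ 2 := by
    intro h2
    have : 2 ∣ Fintype.card F := by
      rw [hqn, h2]
      exact dvd_pow_self 2 n.ne_zero
    omega
  have hcG : Nat.card G = 2 * Fintype.card F * a * (a + 1) := by
    rw [hc]
    have : 2 * Nat.card (PSL2 F) = 2 * (2 * Fintype.card F * a * (a + 1)) := by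
      rw [hcard]; ring
    exact Nat.eq_of_mul_eq_mul_left (by norm_num) this
  rcases Nat.even_or_odd a with hev | hod
  · refine ⟨p, a, a + 1, ?_⟩
    exact { hp := hpp, hp2 := hp2, hq := ⟨n, hqn⟩, hq3 := hF, hm1 := hev, hm2 := hev.add_one,
            hsum := by omega, hdiff := Or.inr rfl, hcard := hcG, hord := hord, hw := hA, hy := hB }
  · refine ⟨p, a + 1, a, ?_⟩
    exact { hp := hpp, hp2 := hp2, hq := ⟨n, hqn⟩, hq3 := hF, hm1 := hod.add_one, hm2 := hod,
            hsum := by omega, hdiff := Or.inl rfl, hcard := by rw [hcG]; ring,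
            hord := fun g => by
              rcases hord g with h | h | h
              · exact Or.inl h
              · exact Or.inr (Or.inr h)
              · exact Or.inr (Or.inl h),
            hw := hB, hy := hA }

end Cfsg.Agent.Lib.H71OsParam
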