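import Cfsg.Agent.Lib.H73TgDefs

set_option autoImplicit false

namespace Cfsg.Agent.Lib.H73TsAS2

open Cfsg.Agent.Lib.H73TgDefs

/-- A quasisimple group with trivial centre is simple. -/
theorem simple_of_qs {K : Type*} [Group K] (h : Cfsg.IsQuasisimple K) (hZ : Subgroup.center K = ⊥) : IsSimpleGroup K := by
  haveI := h.2
  have e : K ≃* K ⧸ Subgroup.center K :=
    (QuotientGroup.quotientBot (G := K)).symm.trans (QuotientGroup.quotientMulEquivOfEq hZ.symm)
  exact e.isSimpleGroup

end Cfsg.Agent.Lib.H73TsAS2
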