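import Cfsg.Agent.Lib.H73TgDefs
import Cfsg.Agent.S1265
import Cfsg.Agent.S1317

set_option autoImplicit false

namespace Cfsg.Agent.Lib.H73TsAS3

open Cfsg.Agent.Lib.H73TgDefs

/-- With trivial Fitting subgroup the layer has trivial centraliser. -/
theorem centralizer_layer {G : Type*} [Group G] [Finite G] (hF : Cfsg.fittingSubgroup G = ⊥) :
    Subgroup.centralizer ((Cfsg.layer G : Subgroup G) : Set G) = ⊥ := by
  have hgf : Cfsg.generalizedFittingSubgroup G = Cfsg.layer G := by
    unfold Cfsg.generalizedFittingSubgroup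
    rw [hF, sup_bot_eq]
  have h1 : Subgroup.centralizer ((Cfsg.layer G : Subgroup G) : Set G) ≤ Cfsg.layer G := by
    have := Cfsg.Agent.S1265.result (G := G)
    rwa [hgf] at this
  have h2 := Cfsg.Agent.S1317.result (X := G)
  rw [hF, bot_inf_eq] at h2
  rw [eq_bot_iff]
  intro z hz
  rw [← h2]
  refine ⟨⟨z, h1 hz⟩, ?_, rfl⟩
  rw [SetLike.mem_coe, Subgroup.mem_center_iff]
  intro g
  apply Subtype.ext
  exact (Subgroup.mem_centralizer_iff.1 hz) (g : G) g.2

end Cfsg.Agent.Lib.H73TsAS3
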