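import Cfsg.Agent.Lib.H73TgDefs
import Cfsg.Agent.Lib.H73TsAS2
import Cfsg.Agent.Lib.H73TsAS3
import Cfsg.Agent.Lib.H73TgFSne
import Cfsg.Agent.Lib.Helper27Balance

set_option autoImplicit false

namespace Cfsg.Agent.Lib.H73TsAS

open Cfsg.Agent.Lib.H73TgDefs

/-- `F*(G) ≠ ⊥` (`H73TgFSne.fstar_ne_bot`) and `F*(G) = layer G` (`hF`), so `layer G = sSup {components} ≠ ⊥` and some component `K` exists (else `sSup ∅ = ⊥`).  By `hone`, `layer G = K` (`le_antisymm (sSup_le ..) (le_sSup hK)`).
`S := K`: normal (`Helper27Balance.layer_normal G`); `centralizer K = ⊥` (`H73TsAS3.centralizer_layer hF`); `center ↥K = ⊥` (a central element of `↥K` lies in `centralizer K`); `hK.2 : IsQuasisimple ↥K`, so `IsSimpleGroup ↥K` (`H73TsAS2.simple_of_qs`);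
not commutative: `(Helper27Basic.isComponent_iff.1 hK).2.not_comm : ⁅K, K⁆ ≠ ⊥`.  Contradiction with `hnas`. -/
theorem false_of_one_comp {G : Type*} [Group G] [Finite G] [Nontrivial G] (hF : Cfsg.fittingSubgroup G = ⊥)
    (hone : ∀ K L : Subgroup G, Cfsg.IsComponent K → Cfsg.IsComponent L → K = L)
    (hnas : ¬ ∃ S : Subgroup G, S.Normal ∧ IsSimpleGroup S ∧ ¬ IsMulCommutative S ∧ Subgroup.centralizer (S : Set G) = ⊥) : False := by
  classical
  have h1 : Cfsg.generalizedFittingSubgroup G ≠ ⊥ := H73TgFSne.fstar_ne_bot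
  have h2 : Cfsg.generalizedFittingSubgroup G = Cfsg.layer G := by
    unfold Cfsg.generalizedFittingSubgroup
    rw [hF, sup_bot_eq]
  rw [h2] at h1
  have h3 : ∃ K : Subgroup G, Cfsg.IsComponent K := by
    by_contra hcon
    push_neg at hcon
    apply h1
    unfold Cfsg.layer
    have : {K : Subgroup G | Cfsg.IsComponent K} = ∅ := by
      ext K
      simp [hcon K]
    rw [this, sSup_empty]
  obtain ⟨K, hK⟩ := h3
  have hL : Cfsg.layer G = K := by
    unfold Cfsg.layer
    refine le_antisymm (sSup_le ?_) (le_sSup hK)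
    intro L hL
    exact le_of_eq (hone L K hL hK)
  have hKn : K.Normal := hL ▸ Helper27Balance.layer_normal G
  have hKc : Subgroup.centralizer (K : Set G) = ⊥ := by
    have := H73TsAS3.centralizer_layer (G := G) hF
    rwa [hL] at this
  have hZ : Subgroup.center ↥K = ⊥ := by
    rw [eq_bot_iff]
    intro z hz
    rw [Subgroup.mem_bot]
    have hz' : (z : G) ∈ Subgroup.centralizer (K : Set G) := by
      rw [Subgroup.mem_centralizer_iff]
      intro k hk
      have := (Subgroup.mem_center_iff.mp hz) ⟨k, hk⟩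
      exact congrArg Subtype.val this
    rw [hKc, Subgroup.mem_bot] at hz'
    exact Subtype.ext hz'
  have hS : IsSimpleGroup ↥K := H73TsAS2.simple_of_qs hK.2 hZ
  refine hnas ⟨K, hKn, hS, ?_, hKc⟩
  intro hc
  apply (Helper27Basic.isComponent_iff.1 hK).2.not_comm
  rw [eq_bot_iff, Subgroup.commutator_le]
  intro a ha b hb
  rw [Subgroup.mem_bot, commutatorElement_eq_one_iff_mul_comm]
  have := hc.is_comm.comm ⟨a, ha⟩ ⟨b, hb⟩
  exact congrArg Subtype.val this

end Cfsg.Agent.Lib.H73TsAS
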