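import Cfsg.Agent.Lib.H73TgDefs

set_option autoImplicit false

namespace Cfsg.Agent.Lib.H73TsAbCase

open Cfsg.Agent.Lib.H73TgDefs

/-- `x = 1`, `k = 0` (`orderOf_one`, `pow_zero`).  `⁅P, P⁆ = ⊥` (`Subgroup.commutator_eq_bot_iff_le_centralizer`, commutativity), `Subgroup.relIndex_bot_left`: `Nat.card P = p^2`.  `centralizer {1} = ⊤` (`Subgroup.centralizer_eq_top_iff_subset`, or ext+simp),
`Subgroup.card_top`; `Sylow.card_eq_multiplicity : Nat.card P = p ^ (Nat.card G).factorization p`; `Nat.pow_right_injective` (`2 ≤ p`). -/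
theorem ab {G : Type*} [Group G] [Finite G] {p : ℕ} [Fact p.Prime] (P : Sylow p G) (hab : IsMulCommutative (P : Subgroup G))
    (hidx : (⁅(P : Subgroup G), (P : Subgroup G)⁆).relIndex (P : Subgroup G) = p ^ 2) :
    ∃ x : G, (∃ k : ℕ, orderOf x = p ^ k) ∧ (Nat.card (Subgroup.centralizer ({x} : Set G))).factorization p = 2 := by
  have hp : p.Prime := Fact.out
  refine ⟨1, ⟨0, by simp⟩, ?_⟩
  have hbot : ⁅(P : Subgroup G), (P : Subgroup G)⁆ = ⊥ := by
    rw [Subgroup.commutator_eq_bot_iff_le_centralizer]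
    intro x hx
    rw [Subgroup.mem_centralizer_iff]
    intro y hy
    exact congrArg Subtype.val (hab.is_comm.comm ⟨y, hy⟩ ⟨x, hx⟩)
  rw [hbot, Subgroup.relIndex_bot_left, Sylow.card_eq_multiplicity] at hidx
  have h2 : (Nat.card G).factorization p = 2 := Nat.pow_right_injective hp.two_le hidx
  have htop : Subgroup.centralizer ({1} : Set G) = ⊤ := by
    ext x
    simp [Subgroup.mem_centralizer_singleton_iff]
  rw [htop, Subgroup.card_top]
  exact h2

end Cfsg.Agent.Lib.H73TsAbCase
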