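import Cfsg.Agent.Lib.H73TgDefs

set_option autoImplicit false

namespace Cfsg.Agent.Lib.H73TsB2a

open Cfsg.Agent.Lib.H73TgDefs

/-- PURE MATHLIB.  The map `P ⧸ centralizer {x} → commutator P`, `g ↦ g * x * g⁻¹ * x⁻¹` is well defined and injective (`g x g⁻¹ = h x h⁻¹ ↔ h⁻¹ g ∈ centralizer {x}`); so `(centralizer {x}).index ≤ Nat.card (commutator P)`
(`Nat.card_le_card_of_injective`, `Subgroup.index` = card of the quotient; or use the orbit `MulAction.orbit (ConjAct P) x` / `ConjClasses`), and `Nat.card P = Nat.card (centralizer {x}) * index` (`Subgroup.card_mul_index`).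
(`g * x * g⁻¹ * x⁻¹ = ⁅g, x⁆ ∈ commutator P`: `Subgroup.commutator_mem_commutator`, `commutator_def`.) -/
theorem card_le {P : Type*} [Group P] [Finite P] (x : P) :
    Nat.card P ≤ Nat.card (Subgroup.centralizer ({x} : Set P)) * Nat.card (commutator P) := by
  classical
  rw [← Subgroup.card_mul_index (Subgroup.centralizer ({x} : Set P))]
  refine Nat.mul_le_mul_left _ ?_
  have hmem : ∀ g : P, g * x * g⁻¹ * x⁻¹ ∈ commutator P := by
    intro g
    have h := Subgroup.commutator_mem_commutator (Subgroup.mem_top g) (Subgroup.mem_top x)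
    rw [commutatorElement_def] at h
    rw [commutator_def]
    exact h
  let f : P ⧸ Subgroup.centralizer ({x} : Set P) → commutator P :=
    Quotient.lift (s := QuotientGroup.leftRel _) (fun g => (⟨g * x * g⁻¹ * x⁻¹, hmem g⟩ : commutator P)) (by
      intro a b hab
      have hab' : a⁻¹ * b ∈ Subgroup.centralizer ({x} : Set P) := QuotientGroup.leftRel_apply.mp hab
      rw [Subgroup.mem_centralizer_singleton_iff] at hab'
      apply Subtype.ext
      show a * x * a⁻¹ * x⁻¹ = b * x * b⁻¹ * x⁻¹
      congr 1
      have h1 : b = a * (a⁻¹ * b) := by group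
      rw [h1, mul_assoc a (a⁻¹ * b) x, hab']
      group)
  have hf : Function.Injective f := by
    intro u v
    induction u using QuotientGroup.induction_on with
    | H a =>
    induction v using QuotientGroup.induction_on with
    | H b =>
    intro h
    have h' : a * x * a⁻¹ * x⁻¹ = b * x * b⁻¹ * x⁻¹ := congrArg Subtype.val h
    have h2 : a * x * a⁻¹ = b * x * b⁻¹ := mul_right_cancel h'
    rw [QuotientGroup.eq, Subgroup.mem_centralizer_singleton_iff]
    have h3 : x = a⁻¹ * (b * x * b⁻¹) * a := by rw [← h2]; group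
    calc a⁻¹ * b * x = a⁻¹ * (b * x * b⁻¹) * a * (a⁻¹ * b) := by group
      _ = x * (a⁻¹ * b) := by rw [← h3]
  exact Nat.card_le_card_of_injective f hf

end Cfsg.Agent.Lib.H73TsB2a
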