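import Cfsg.Agent.Lib.H73TgDefs

set_option autoImplicit false

namespace Cfsg.Agent.Lib.H73TsCycF

open Cfsg.Agent.Lib.H73TgDefs

/-- PURE MATHLIB (Burnside basis, cyclic case).  `(frattini P).index = 1` or `p` (`(Nat.dvd_prime Fact.out).1 h`).
Index `1`: `frattini P = ⊤`, `⊥ ⊔ frattini P = ⊤`, `frattini_nongenerating` gives `⊥ = ⊤`: `P` is trivial.
Index `p`: `P ⧸ frattini P` has prime order, is cyclic, generated by `mk g`; `zpowers g ⊔ frattini P = ⊤`; `frattini_nongenerating`: `zpowers g = ⊤`; powers of `g` commute.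
(Model: the landed `Cfsg/Agent/Lib/H73TgGen.lean`.) -/
theorem comm_of_index {P : Type*} [Group P] [Finite P] {p : ℕ} [Fact p.Prime] (h : (frattini P).index ∣ p) :
    ∀ x y : P, x * y = y * x := by
  have hp : p.Prime := Fact.out
  rcases (Nat.dvd_prime hp).1 h with h1 | h1
  · rw [Subgroup.index_eq_one] at h1
    have h2 : (⊥ : Subgroup P) = ⊤ := frattini_nongenerating (by rw [h1]; simp)
    intro x y
    have hx : x ∈ (⊥ : Subgroup P) := by rw [h2]; trivial
    have hy : y ∈ (⊥ : Subgroup P) := by rw [h2]; trivial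
    rw [Subgroup.mem_bot] at hx hy
    rw [hx, hy]
  · have hcard : Nat.card (P ⧸ frattini P) = p := h1
    have hcyc : IsCyclic (P ⧸ frattini P) := isCyclic_of_prime_card hcard
    obtain ⟨γ, hγ⟩ := hcyc.exists_generator
    obtain ⟨g, rfl⟩ := QuotientGroup.mk_surjective γ
    have h2 : Subgroup.zpowers g = ⊤ := by
      apply frattini_nongenerating
      rw [eq_top_iff]
      intro x _
      obtain ⟨k, hk⟩ := Subgroup.mem_zpowers_iff.1 (hγ (QuotientGroup.mk x))
      have h2 : x * (g ^ k)⁻¹ ∈ frattini P := by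
        rw [← QuotientGroup.eq_one_iff, QuotientGroup.mk_mul, QuotientGroup.mk_inv,
          QuotientGroup.mk_zpow, hk, mul_inv_cancel]
      have h3 : x = (x * (g ^ k)⁻¹) * g ^ k := by group
      rw [h3]
      exact mul_mem (Subgroup.mem_sup_right h2)
        (Subgroup.mem_sup_left (Subgroup.zpow_mem_zpowers g k))
    intro x y
    have hx : x ∈ Subgroup.zpowers g := by rw [h2]; trivial
    have hy : y ∈ Subgroup.zpowers g := by rw [h2]; trivial
    obtain ⟨a, rfl⟩ := Subgroup.mem_zpowers_iff.1 hx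
    obtain ⟨b, rfl⟩ := Subgroup.mem_zpowers_iff.1 hy
    rw [← zpow_add, ← zpow_add, add_comm]

end Cfsg.Agent.Lib.H73TsCycF
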