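import Cfsg.Agent.Lib.H73TgDefs
import Cfsg.Agent.Lib.H73TsCycF
import Cfsg.Agent.Lib.Helper3PGroup

set_option autoImplicit false

namespace Cfsg.Agent.Lib.H73TsB2b

open Cfsg.Agent.Lib.H73TgDefs

/-- `(commutator P).index` divides `Nat.card P`, a power of `p` (`IsPGroup.iff_card`), so it is `p^i` (`(Nat.dvd_prime_pow Fact.out).1`).  If `i ≤ 1` then `(frattini P).index ∣ (commutator P).index ∣ p`
(`Helper3PGroup.commutator_le_frattini hP`, `Subgroup.index_dvd_of_le`), so `P` is commutative (`H73TsCycF.comm_of_index`), `commutator P = ⊥` (`commutator_eq_bot_iff_center_eq_top`/`Subgroup.commutator_le`..), index `= Nat.card P` (`Subgroup.index_bot`),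
divisible by `p^2`: contradiction with `p^i`, `i ≤ 1`.  So `2 ≤ i` and `p^2 ∣ p^i`. -/
theorem sq_dvd_index {P : Type*} [Group P] [Finite P] {p : ℕ} [Fact p.Prime] (hP : IsPGroup p P) (hbig : p ^ 2 ∣ Nat.card P) :
    p ^ 2 ∣ (commutator P).index := by
  have hp : p.Prime := Fact.out
  obtain ⟨n, hn⟩ := IsPGroup.iff_card.1 hP
  have hdvd : (commutator P).index ∣ p ^ n := by rw [← hn]; exact Subgroup.index_dvd_card _
  obtain ⟨i, hi, hi2⟩ := (Nat.dvd_prime_pow hp).1 hdvd
  rcases Nat.lt_or_ge i 2 with h | h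
  · exfalso
    have hle := Cfsg.Agent.Lib.Helper3PGroup.commutator_le_frattini hP
    have h1 : (frattini P).index ∣ p := by
      refine (Subgroup.index_dvd_of_le hle).trans ?_
      rw [hi2]
      calc p ^ i ∣ p ^ 1 := pow_dvd_pow p (by omega)
        _ = p := pow_one p
    have hcomm := H73TsCycF.comm_of_index h1
    have h2 : commutator P = ⊥ := by
      rw [commutator_eq_bot_iff_center_eq_top, eq_top_iff]
      intro z _
      rw [Subgroup.mem_center_iff]
      intro g
      exact hcomm g z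
    rw [h2, Subgroup.index_bot] at hi2
    rw [hi2] at hbig
    have := (Nat.pow_dvd_pow_iff_le_right hp.one_lt).1 hbig
    omega
  · rw [hi2]; exact pow_dvd_pow p h

end Cfsg.Agent.Lib.H73TsB2b
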