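import Cfsg.Agent.Lib.H73TgDefs

set_option autoImplicit false

namespace Cfsg.Agent.Lib.H73TsRel

open Cfsg.Agent.Lib.H73TgDefs

/-- The relative index of `⁅P, P⁆` in `P` is the index of the commutator subgroup of the type `↥P`. -/
theorem relIndex_comm {G : Type*} [Group G] (P : Subgroup G) : (⁅P, P⁆).relIndex P = (commutator ↥P).index := by
  have h : (⁅P, P⁆).subgroupOf P = commutator ↥P := by
    rw [← Subgroup.map_subtype_commutator P, Subgroup.subgroupOf,
      Subgroup.comap_map_eq_self_of_injective P.subtype_injective]
  rw [Subgroup.relIndex, h]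

end Cfsg.Agent.Lib.H73TsRel
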