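import Cfsg.Agent.Lib.H73TgDefs

set_option autoImplicit false

namespace Cfsg.Agent.Lib.H73TsSylC1

open Cfsg.Agent.Lib.H73TgDefs

/-- A Sylow subgroup `S` of `C = C_G(x)` containing `x`, inside a Sylow subgroup `P₁` of `G`: `P₁ ⊓ C = S`. -/
theorem exists_sylow {G : Type*} [Group G] [Finite G] {p : ℕ} [Fact p.Prime] (x : G) (hx : ∃ k : ℕ, orderOf x = p ^ k) :
    ∃ P₁ : Sylow p G, x ∈ (P₁ : Subgroup G) ∧
      Nat.card ((P₁ : Subgroup G) ⊓ Subgroup.centralizer ({x} : Set G) : Subgroup G) =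
        p ^ (Nat.card (Subgroup.centralizer ({x} : Set G))).factorization p := by
  obtain ⟨k, hk⟩ := hx
  set C : Subgroup G := Subgroup.centralizer ({x} : Set G) with hC
  have hxC : x ∈ C := by
    rw [hC, Subgroup.mem_centralizer_singleton_iff]
  have hz : IsPGroup p (Subgroup.zpowers (⟨x, hxC⟩ : ↥C)) := by
    apply IsPGroup.of_card (n := k)
    rw [Nat.card_zpowers, Subgroup.orderOf_mk, hk]
  obtain ⟨S, hS⟩ := hz.exists_le_sylow
  have hT : IsPGroup p ((S : Subgroup ↥C).map C.subtype) := S.isPGroup'.map C.subtype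
  obtain ⟨P₁, hP₁⟩ := hT.exists_le_sylow
  refine ⟨P₁, ?_, ?_⟩
  · apply hP₁
    exact ⟨⟨x, hxC⟩, hS (Subgroup.mem_zpowers _), rfl⟩
  · have h1 : IsPGroup p (((P₁ : Subgroup G) ⊓ C).subgroupOf C) :=
      (P₁.isPGroup'.to_le inf_le_left).comap_subtype
    have h2 : (S : Subgroup ↥C) ≤ ((P₁ : Subgroup G) ⊓ C).subgroupOf C := by
      intro s hs
      rw [Subgroup.mem_subgroupOf]
      exact ⟨hP₁ ⟨s, hs, rfl⟩, s.2⟩
    have h3 := S.is_maximal' h1 h2
    have h4 : Nat.card (((P₁ : Subgroup G) ⊓ C).subgroupOf C) = Nat.card ((P₁ : Subgroup G) ⊓ C : Subgroup G) :=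
      Nat.card_congr (Subgroup.subgroupOfEquivOfLe inf_le_right).toEquiv
    rw [← h4, h3]
    exact S.card_eq_multiplicity

end Cfsg.Agent.Lib.H73TsSylC1
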