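import Cfsg.Agent.Lib.H73TgDefs
import Cfsg.Agent.Lib.H73TsSylC1

set_option autoImplicit false

namespace Cfsg.Agent.Lib.H73TsSylC2

open Cfsg.Agent.Lib.H73TgDefs

/-- `P₁` from `H73TsSylC1.exists_sylow x hx`; `h • P₁ = P` (`MulAction.exists_smul_eq G P₁ P`); `x' := h * x * h⁻¹ ∈ P` (`Sylow.coe_subgroup_smul`/`Sylow.smul_def`, `Subgroup.smul_mem_pointwise_smul`, `MulAut.smul_def`, `MulAut.conj_apply`).
`P ⊓ centralizer {x'}` is the image of `P₁ ⊓ centralizer {x}` under `(MulAut.conj h).toMonoidHom` (ext; `z` commutes with `x` iff `h z h⁻¹` commutes with `h x h⁻¹`), so the cards agree (`Subgroup.card_map_of_injective`). -/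
theorem exists_conj {G : Type*} [Group G] [Finite G] {p : ℕ} [Fact p.Prime] (P : Sylow p G) (x : G) (hx : ∃ k : ℕ, orderOf x = p ^ k) :
    ∃ h : G, h * x * h⁻¹ ∈ (P : Subgroup G) ∧
      Nat.card ((P : Subgroup G) ⊓ Subgroup.centralizer ({h * x * h⁻¹} : Set G) : Subgroup G) =
        p ^ (Nat.card (Subgroup.centralizer ({x} : Set G))).factorization p := by
  obtain ⟨P₁, hxP, hcard⟩ := H73TsSylC1.exists_sylow (p := p) x hx
  obtain ⟨h, hh⟩ := MulAction.exists_smul_eq G P₁ P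
  have hmem : ∀ z, z ∈ (P : Subgroup G) ↔ h⁻¹ * z * h ∈ (P₁ : Subgroup G) := by
    intro z
    rw [← hh, Sylow.coe_subgroup_smul, Subgroup.mem_pointwise_smul_iff_inv_smul_mem,
      MulAut.smul_def, MulAut.conj_inv_apply]
  refine ⟨h, (hmem _).2 (by simpa [mul_assoc] using hxP), ?_⟩
  rw [← hcard]
  have hmap : (P : Subgroup G) ⊓ Subgroup.centralizer ({h * x * h⁻¹} : Set G)
      = ((P₁ : Subgroup G) ⊓ Subgroup.centralizer ({x} : Set G)).map
        (MulAut.conj h).toMonoidHom := by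
    ext z
    simp only [Subgroup.mem_inf, Subgroup.mem_map, Subgroup.mem_centralizer_singleton_iff,
      MulEquiv.coe_toMonoidHom, MulAut.conj_apply]
    constructor
    · rintro ⟨h1, h2⟩
      refine ⟨h⁻¹ * z * h, ⟨(hmem z).1 h1, ?_⟩, by group⟩
      have h3 : h⁻¹ * (h * x * h⁻¹ * z) * h = h⁻¹ * (z * (h * x * h⁻¹)) * h := by rw [h2]
      symm
      calc x * (h⁻¹ * z * h) = h⁻¹ * (h * x * h⁻¹ * z) * h := by group
        _ = h⁻¹ * (z * (h * x * h⁻¹)) * h := h3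
        _ = h⁻¹ * z * h * x := by group
    · rintro ⟨y, ⟨h1, h2⟩, rfl⟩
      refine ⟨(hmem _).2 (by simpa [mul_assoc] using h1), ?_⟩
      symm
      calc h * x * h⁻¹ * (h * y * h⁻¹) = h * (x * y) * h⁻¹ := by group
        _ = h * (y * x) * h⁻¹ := by rw [h2]
        _ = h * y * h⁻¹ * (h * x * h⁻¹) := by group
  rw [hmap, Subgroup.card_map_of_injective (MulAut.conj h).injective]

end Cfsg.Agent.Lib.H73TsSylC2
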