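import Cfsg.Agent.Lib.H73TgDefs
import Cfsg.Agent.Lib.H73TsSylC2
import Cfsg.Agent.Lib.H73TsB2a
import Cfsg.Agent.Lib.H73TsB2b
import Cfsg.Agent.Lib.H73TsRel

set_option autoImplicit false

namespace Cfsg.Agent.Lib.H73TsBack

open Cfsg.Agent.Lib.H73TgDefs

/-- (⇐).  `H73TsSylC2.exists_conj P x hx` and `hc`: `x' ∈ P` with `Nat.card (P ⊓ centralizer {x'}) = p^2`.  In the type `↥P`: `centralizer {⟨x', _⟩}` corresponds to `(P ⊓ centralizer {x'}).subgroupOf P`, of card `p^2`
(`Subgroup.subgroupOfEquivOfLe inf_le_left`).  `p^2 ∣ Nat.card ↥P` (`Sylow.card_eq_multiplicity`, `hbig`, `(Nat.Prime.pow_dvd_iff_le_factorization ..)`, `pow_dvd_pow`).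
`H73TsB2a.card_le`: `|P| ≤ p^2 * |P'|`; with `Subgroup.card_mul_index (commutator ↥P)` get `index ≤ p^2`; `H73TsB2b.sq_dvd_index P.2`: `p^2 ∣ index` (index `≠ 0`); so `index = p^2`; `H73TsRel.relIndex_comm`. -/
theorem back {G : Type*} [Group G] [Finite G] {p : ℕ} [Fact p.Prime] (P : Sylow p G) (hbig : p ^ 2 ∣ Nat.card G) (x : G)
    (hx : ∃ k : ℕ, orderOf x = p ^ k) (hc : (Nat.card (Subgroup.centralizer ({x} : Set G))).factorization p = 2) :
    (⁅(P : Subgroup G), (P : Subgroup G)⁆).relIndex (P : Subgroup G) = p ^ 2 := by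
  have hp : p.Prime := Fact.out
  obtain ⟨h, hxP, hcard⟩ := H73TsSylC2.exists_conj P x hx
  rw [hc] at hcard
  set x' := h * x * h⁻¹ with hx'
  have e : Subgroup.centralizer ({(⟨x', hxP⟩ : ↥(P : Subgroup G))} : Set ↥(P : Subgroup G))
      = ((P : Subgroup G) ⊓ Subgroup.centralizer ({x'} : Set G)).subgroupOf (P : Subgroup G) := by
    ext w
    rw [Subgroup.mem_subgroupOf, Subgroup.mem_inf, Subgroup.mem_centralizer_singleton_iff,
      Subgroup.mem_centralizer_singleton_iff]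
    constructor
    · intro h
      exact ⟨w.2, congrArg Subtype.val h⟩
    · intro h
      exact Subtype.ext h.2
  have hcen : Nat.card (Subgroup.centralizer ({(⟨x', hxP⟩ : ↥(P : Subgroup G))} : Set ↥(P : Subgroup G)))
      = p ^ 2 := by
    rw [e, Nat.card_congr (Subgroup.subgroupOfEquivOfLe inf_le_left).toEquiv, hcard]
  have hbigP : p ^ 2 ∣ Nat.card ↥(P : Subgroup G) := by
    rw [Sylow.card_eq_multiplicity]
    apply pow_dvd_pow
    exact (hp.pow_dvd_iff_le_factorization Nat.card_pos.ne').1 hbig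
  have h1 := H73TsB2a.card_le (⟨x', hxP⟩ : ↥(P : Subgroup G))
  rw [hcen] at h1
  have h2 := Subgroup.card_mul_index (commutator ↥(P : Subgroup G))
  have h3 := H73TsB2b.sq_dvd_index P.2 hbigP
  have hpos : 0 < Nat.card (commutator ↥(P : Subgroup G)) := Nat.card_pos
  have hile : (commutator ↥(P : Subgroup G)).index ≤ p ^ 2 := by
    rw [← h2, mul_comm] at h1
    exact Nat.le_of_mul_le_mul_right h1 hpos
  have hi0 : (commutator ↥(P : Subgroup G)).index ≠ 0 := Subgroup.index_ne_zero_of_finite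
  have hige : p ^ 2 ≤ (commutator ↥(P : Subgroup G)).index := Nat.le_of_dvd (Nat.pos_of_ne_zero hi0) h3
  rw [H73TsRel.relIndex_comm]
  exact le_antisymm hile hige

end Cfsg.Agent.Lib.H73TsBack
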