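import Cfsg.Agent.Lib.H73TgDefs

set_option autoImplicit false

namespace Cfsg.Agent.Lib.H73TsCommGen

open Cfsg.Agent.Lib.H73TgDefs
open scoped commutatorElement

/-- PURE MATHLIB.  `R` is normal in `P`, and `P ⧸ R` is commutative. -/
theorem comm_le {P : Type*} [Group P] [Finite P] (Q R : Subgroup P) (y : P) (hRQ : R ≤ Q)
    (hgen : ∀ x : P, ∃ k : ℤ, ∃ a ∈ Q, x = a * y ^ k) (hQQ : ∀ a ∈ Q, ∀ b ∈ Q, a * b * a⁻¹ * b⁻¹ ∈ R)
    (hy : ∀ a ∈ Q, y * a * y⁻¹ * a⁻¹ ∈ R) : commutator P ≤ R := by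
  have hgen' : ∀ x : P, ∃ n : ℕ, ∃ a ∈ Q, x = a * y ^ n := by
    intro x
    obtain ⟨k, a, ha, rfl⟩ := hgen x
    obtain ⟨n, hn⟩ : y ^ k ∈ Submonoid.powers y := mem_powers_iff_mem_zpowers.mpr ⟨k, rfl⟩
    exact ⟨n, a, ha, by rw [← hn]⟩
  have hQc : ∀ a ∈ Q, ∀ r ∈ R, a * r * a⁻¹ ∈ R := by
    intro a ha r hr
    have := R.mul_mem (hQQ a ha r (hRQ hr)) hr
    simpa using this
  have hyc : ∀ r ∈ R, y * r * y⁻¹ ∈ R := by
    intro r hr
    have := R.mul_mem (hy r (hRQ hr)) hr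
    simpa using this
  have hyn : ∀ n : ℕ, ∀ r ∈ R, y ^ n * r * (y ^ n)⁻¹ ∈ R := by
    intro n
    induction n with
    | zero => intro r hr; simpa using hr
    | succ n ih =>
      intro r hr
      have := hyc _ (ih r hr)
      have e : y ^ (n + 1) * r * (y ^ (n + 1))⁻¹ = y * (y ^ n * r * (y ^ n)⁻¹) * y⁻¹ := by
        rw [pow_succ']; group
      rw [e]; exact this
  have hRn : R.Normal := by
    refine ⟨fun r hr x => ?_⟩
    obtain ⟨n, a, ha, rfl⟩ := hgen' x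
    have := hQc a ha _ (hyn n r hr)
    have e : a * y ^ n * r * (a * y ^ n)⁻¹ = a * (y ^ n * r * (y ^ n)⁻¹) * a⁻¹ := by group
    rw [e]; exact this
  have c1 : ∀ a ∈ Q, ∀ b ∈ Q, Commute (QuotientGroup.mk' R a) (QuotientGroup.mk' R b) := by
    intro a ha b hb
    have := (QuotientGroup.eq_one_iff (N := R) _).mpr (hQQ a ha b hb)
    have h2 : QuotientGroup.mk' R a * QuotientGroup.mk' R b * (QuotientGroup.mk' R a)⁻¹ *
        (QuotientGroup.mk' R b)⁻¹ = 1 := by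
      simpa using this
    show _ * _ = _ * _
    have h3 := mul_inv_eq_one.mp h2
    exact mul_inv_eq_iff_eq_mul.mp h3
  have c2 : ∀ a ∈ Q, Commute (QuotientGroup.mk' R y) (QuotientGroup.mk' R a) := by
    intro a ha
    have := (QuotientGroup.eq_one_iff (N := R) _).mpr (hy a ha)
    have h2 : QuotientGroup.mk' R y * QuotientGroup.mk' R a * (QuotientGroup.mk' R y)⁻¹ *
        (QuotientGroup.mk' R a)⁻¹ = 1 := by
      simpa using this
    show _ * _ = _ * _
    have h3 := mul_inv_eq_one.mp h2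
    exact mul_inv_eq_iff_eq_mul.mp h3
  rw [commutator_def, Subgroup.commutator_le]
  intro x _ z _
  obtain ⟨n, a, ha, rfl⟩ := hgen' x
  obtain ⟨m, b, hb, rfl⟩ := hgen' z
  rw [← QuotientGroup.eq_one_iff (N := R)]
  have hc : Commute (QuotientGroup.mk' R (a * y ^ n)) (QuotientGroup.mk' R (b * y ^ m)) := by
    rw [map_mul, map_mul, map_pow, map_pow]
    refine Commute.mul_left (Commute.mul_right (c1 a ha b hb) ((c2 a ha).symm.pow_right m)) ?_
    exact Commute.mul_right ((c2 b hb).pow_left n) ((Commute.refl _).pow_pow n m)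
  have : QuotientGroup.mk' R ⁅a * y ^ n, b * y ^ m⁆ = 1 := by
    rw [map_commutatorElement]
    exact commutatorElement_eq_one_iff_commute.mpr hc
  exact this

end Cfsg.Agent.Lib.H73TsCommGen
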