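import Cfsg.Agent.Lib.H73TgDefs

set_option autoImplicit false

namespace Cfsg.Agent.Lib.H73TsGenY

open Cfsg.Agent.Lib.H73TgDefs

/-- PURE MATHLIB.  `P ⧸ Q` has prime order `p` (`Subgroup.index_eq_card`), `mk y ≠ 1` (`QuotientGroup.eq_one_iff`), so `mk y` generates it (`zpowers_eq_top_of_prime_card`/`mem_zpowers_of_prime_card`).
(1) for `x`, `mk x = mk y ^ k`, so `a := x * (y^k)⁻¹ ∈ Q`.  (2) `(mk y)^p = 1` (`pow_card_eq_one'`).  (3) `orderOf (mk y) = p` (`orderOf_eq_prime`), so `(mk y)^i ≠ 1` for `0 < i < p` (`pow_ne_one_of_lt_orderOf`). -/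
theorem gen_y {P : Type*} [Group P] [Finite P] {p : ℕ} [Fact p.Prime] (Q : Subgroup P) [Q.Normal] (hQ : Q.index = p) (y : P) (hy : y ∉ Q) :
    (∀ x : P, ∃ k : ℤ, ∃ a ∈ Q, x = a * y ^ k) ∧ y ^ p ∈ Q ∧ ∀ i : ℕ, 0 < i → i < p → y ^ i ∉ Q := by
  have hp : p.Prime := Fact.out
  have hcard : Nat.card (P ⧸ Q) = p := hQ
  have hy1 : (QuotientGroup.mk y : P ⧸ Q) ≠ 1 := fun h => hy ((QuotientGroup.eq_one_iff y).1 h)
  have hpow : (QuotientGroup.mk y : P ⧸ Q) ^ p = 1 := by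
    rw [← hcard]
    exact pow_card_eq_one'
  have hord : orderOf (QuotientGroup.mk y : P ⧸ Q) = p := orderOf_eq_prime hpow hy1
  refine ⟨?_, ?_, ?_⟩
  · intro x
    have hx : (QuotientGroup.mk x : P ⧸ Q) ∈ Subgroup.zpowers (QuotientGroup.mk y : P ⧸ Q) :=
      mem_zpowers_of_prime_card hcard hy1
    obtain ⟨k, hk⟩ := Subgroup.mem_zpowers_iff.1 hx
    refine ⟨k, x * (y ^ k)⁻¹, ?_, by group⟩
    rw [← QuotientGroup.eq_one_iff, QuotientGroup.mk_mul, QuotientGroup.mk_inv,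
      QuotientGroup.mk_zpow, hk, mul_inv_cancel]
  · rw [← QuotientGroup.eq_one_iff, QuotientGroup.mk_pow]
    exact hpow
  · intro i hi0 hip h
    rw [← QuotientGroup.eq_one_iff, QuotientGroup.mk_pow] at h
    exact pow_ne_one_of_lt_orderOf (by omega) (by rw [hord]; exact hip) h

end Cfsg.Agent.Lib.H73TsGenY
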