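import Cfsg.Agent.Lib.H73TgDefs
import Cfsg.Agent.Lib.H73TsCommGen
import Cfsg.Agent.Lib.H73TsGenY

set_option autoImplicit false

namespace Cfsg.Agent.Lib.H73TsCenY1

open Cfsg.Agent.Lib.H73TgDefs
open scoped commutatorElement

/-- PURE MATHLIB.  `f q = y q y⁻¹ q⁻¹` is an endomorphism of `Q` with kernel `C_Q(y)` and image `P'`. -/
theorem card_inf {P : Type*} [Group P] [Finite P] {p : ℕ} [Fact p.Prime] (Q : Subgroup P) [Q.Normal] (hQ : Q.index = p)
    (hab : ∀ a ∈ Q, ∀ b ∈ Q, a * b = b * a) (hidx : (commutator P).index = p ^ 2) (y : P) (hy : y ∉ Q) :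
    Nat.card (Q ⊓ Subgroup.centralizer ({y} : Set P) : Subgroup P) = p := by
  have hp : p.Prime := Fact.out
  have hc : ∀ a b : ↥Q, a * b = b * a := fun a b => Subtype.ext (hab a a.2 b b.2)
  let f : ↥Q →* ↥Q := MonoidHom.mk' (fun q : ↥Q => (MulAut.conjNormal y q) * q⁻¹) (by
    intro a b
    rw [map_mul, mul_inv_rev]
    calc MulAut.conjNormal y a * MulAut.conjNormal y b * (b⁻¹ * a⁻¹)
        = MulAut.conjNormal y a * ((MulAut.conjNormal y b * b⁻¹) * a⁻¹) := by group
      _ = MulAut.conjNormal y a * (a⁻¹ * (MulAut.conjNormal y b * b⁻¹)) := by rw [hc _ a⁻¹]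
      _ = _ := by group)
  have hf : ∀ q : ↥Q, ((f q : ↥Q) : P) = y * q * y⁻¹ * (q : P)⁻¹ := by
    intro q
    show ((MulAut.conjNormal y q * q⁻¹ : ↥Q) : P) = _
    rw [Subgroup.coe_mul, MulAut.conjNormal_apply, Subgroup.coe_inv]
  have hker : (Q ⊓ Subgroup.centralizer ({y} : Set P) : Subgroup P) = f.ker.map Q.subtype := by
    ext x
    simp only [Subgroup.mem_inf, Subgroup.mem_centralizer_singleton_iff, Subgroup.mem_map, MonoidHom.mem_ker,
      Subgroup.coe_subtype]
    constructor
    · rintro ⟨hx, hxy⟩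
      refine ⟨⟨x, hx⟩, ?_, rfl⟩
      apply Subtype.ext
      rw [hf]
      simp only [Subgroup.coe_one]
      first
        | (rw [hxy]; group)
        | (rw [← hxy]; group)
    · rintro ⟨q, hq, rfl⟩
      refine ⟨q.2, ?_⟩
      have := congrArg Subtype.val hq
      rw [hf] at this
      simp only [Subgroup.coe_one] at this
      have h2 := mul_inv_eq_one.mp this
      have h3 := mul_inv_eq_iff_eq_mul.mp h2
      first
        | exact h3
        | exact h3.symm
  obtain ⟨hgen, -, -⟩ := H73TsGenY.gen_y Q hQ y hy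
  have hR : f.range.map Q.subtype = commutator P := by
    apply le_antisymm
    · rintro x ⟨q', ⟨q, rfl⟩, rfl⟩
      rw [Subgroup.coe_subtype, hf, commutator_def]
      exact Subgroup.commutator_mem_commutator (Subgroup.mem_top y) (Subgroup.mem_top (q : P))
    · apply H73TsCommGen.comm_le Q _ y _ hgen
      · intro a ha b hb
        rw [hab a ha b hb]
        simp
      · intro a ha
        exact ⟨f ⟨a, ha⟩, ⟨⟨a, ha⟩, rfl⟩, by rw [Subgroup.coe_subtype, hf]⟩
      · rintro x ⟨q', -, rfl⟩
        exact q'.2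
  have c1 : Nat.card (f.ker.map Q.subtype) = Nat.card f.ker :=
    Subgroup.card_map_of_injective Q.subtype_injective
  have c2 : Nat.card (f.range.map Q.subtype) = Nat.card f.range :=
    Subgroup.card_map_of_injective Q.subtype_injective
  have c3 := Subgroup.card_mul_index f.ker
  rw [Subgroup.index_ker f] at c3
  have c4 := Subgroup.card_mul_index Q
  have c5 := Subgroup.card_mul_index (commutator P)
  rw [hker, c1]
  rw [hR] at c2
  rw [hQ] at c4
  rw [hidx, c2] at c5
  rw [← c3] at c4
  have hpos : 0 < Nat.card f.range := Nat.card_pos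
  have : Nat.card f.ker * (Nat.card f.range * p) = p * (Nat.card f.range * p) := by
    nlinarith [c4, c5]
  exact Nat.eq_of_mul_eq_mul_right (Nat.mul_pos hpos hp.pos) this

end Cfsg.Agent.Lib.H73TsCenY1
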