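import Cfsg.Agent.Lib.H73TgDefs

set_option autoImplicit false

namespace Cfsg.Agent.Lib.H73TsCenY2

open Cfsg.Agent.Lib.H73TgDefs

/-- PURE MATHLIB.  `H := centralizer {y} ∋ y ∉ Q`.  `(Q ⊓ H).relIndex H = Q.relIndex H` (`Subgroup.inf_relIndex_right`) divides `Q.index = p` (`Subgroup.relIndex_dvd_index_of_normal`) and is `≠ 1` (`Subgroup.relIndex_eq_one`: `H ≤ Q` is false), so it is `p`.
`Nat.card (Q ⊓ H) * (Q ⊓ H).relIndex H = Nat.card H` (`Subgroup.relIndex_mul_relIndex ⊥ _ _`, `Subgroup.relIndex_bot_left`; see `Helper27Core.card_mul_relIndex`). -/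
theorem card_centralizer {P : Type*} [Group P] [Finite P] {p : ℕ} [Fact p.Prime] (Q : Subgroup P) [Q.Normal] (hQ : Q.index = p)
    (y : P) (hy : y ∉ Q) :
    Nat.card (Subgroup.centralizer ({y} : Set P)) = Nat.card (Q ⊓ Subgroup.centralizer ({y} : Set P) : Subgroup P) * p := by
  have hp : p.Prime := Fact.out
  have hyH : y ∈ Subgroup.centralizer ({y} : Set P) := by
    rw [Subgroup.mem_centralizer_singleton_iff]
  have h1 : Q.relIndex (Subgroup.centralizer ({y} : Set P)) = p := by
    have hd : Q.relIndex (Subgroup.centralizer ({y} : Set P)) ∣ p := by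
      rw [← hQ]
      exact Subgroup.relIndex_dvd_index_of_normal Q _
    rcases (Nat.dvd_prime hp).1 hd with h | h
    · rw [Subgroup.relIndex_eq_one] at h
      exact absurd (h hyH) hy
    · exact h
  have h2 := Subgroup.relIndex_mul_relIndex ⊥ (Q ⊓ Subgroup.centralizer ({y} : Set P))
    (Subgroup.centralizer ({y} : Set P)) bot_le inf_le_right
  rw [Subgroup.relIndex_bot_left, Subgroup.relIndex_bot_left, Subgroup.inf_relIndex_right, h1] at h2
  exact h2.symm

end Cfsg.Agent.Lib.H73TsCenY2
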