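import Cfsg.Agent.Lib.H73TgDefs
import Cfsg.Agent.Lib.H73TsCenY1
import Cfsg.Agent.Lib.H73TsCenY2
import Cfsg.Agent.Lib.H73TsRel

set_option autoImplicit false

namespace Cfsg.Agent.Lib.H73TsCenYG

open Cfsg.Agent.Lib.H73TgDefs

/-- Transport to the type `↥P`: `Q := (N ⊓ P).subgroupOf P` is normal (`N` normal), `Q.index = p` (definition of `relIndex`), commutative elementwise, `(commutator ↥P).index = p^2` (`H73TsRel.relIndex_comm`), `y' := ⟨y, hy⟩ ∉ Q`.
`H73TsCenY1.card_inf` and `H73TsCenY2.card_centralizer`: `Nat.card (centralizer {y'}) = p * p`.  `centralizer {y'} = (P ⊓ centralizer {y}).subgroupOf P` (ext; `Subgroup.mem_centralizer_singleton_iff`, `Subtype.ext_iff`), and `Nat.card ((P ⊓ C).subgroupOf P) = Nat.card (P ⊓ C)` (`Subgroup.subgroupOfEquivOfLe inf_le_left`, `Nat.card_congr`). -/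
theorem card_inf_centralizer {G : Type*} [Group G] [Finite G] {p : ℕ} [Fact p.Prime] (P : Sylow p G) (N : Subgroup G) (hN : N.Normal)
    (h1 : (N ⊓ (P : Subgroup G)).relIndex (P : Subgroup G) = p)
    (hab : ∀ a ∈ N ⊓ (P : Subgroup G), ∀ b ∈ N ⊓ (P : Subgroup G), a * b = b * a)
    (hidx : (⁅(P : Subgroup G), (P : Subgroup G)⁆).relIndex (P : Subgroup G) = p ^ 2) (y : G) (hy : y ∈ (P : Subgroup G)) (hyN : y ∉ N) :
    Nat.card ((P : Subgroup G) ⊓ Subgroup.centralizer ({y} : Set G) : Subgroup G) = p ^ 2 := by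
  have hNP : (N.subgroupOf (P : Subgroup G)).Normal := hN.subgroupOf _
  have hQe : (N ⊓ (P : Subgroup G)).subgroupOf (P : Subgroup G) = N.subgroupOf (P : Subgroup G) :=
    Subgroup.inf_subgroupOf_right N _
  have hQn : ((N ⊓ (P : Subgroup G)).subgroupOf (P : Subgroup G)).Normal := by rw [hQe]; exact hNP
  have hQi : ((N ⊓ (P : Subgroup G)).subgroupOf (P : Subgroup G)).index = p := h1
  have hab' : ∀ a ∈ (N ⊓ (P : Subgroup G)).subgroupOf (P : Subgroup G),
      ∀ b ∈ (N ⊓ (P : Subgroup G)).subgroupOf (P : Subgroup G), a * b = b * a := by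
    intro a ha b hb
    exact Subtype.ext (hab a ha b hb)
  have hidx' : (commutator ↥(P : Subgroup G)).index = p ^ 2 := by
    rw [← H73TsRel.relIndex_comm]
    exact hidx
  have hy' : (⟨y, hy⟩ : ↥(P : Subgroup G)) ∉ (N ⊓ (P : Subgroup G)).subgroupOf (P : Subgroup G) := by
    intro h
    exact hyN (Subgroup.mem_subgroupOf.1 h).1
  have c1 := H73TsCenY1.card_inf _ hQi hab' hidx' _ hy'
  have c2 := H73TsCenY2.card_centralizer _ hQi _ hy'
  rw [c1] at c2
  have e : Subgroup.centralizer ({(⟨y, hy⟩ : ↥(P : Subgroup G))} : Set ↥(P : Subgroup G))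
      = ((P : Subgroup G) ⊓ Subgroup.centralizer ({y} : Set G)).subgroupOf (P : Subgroup G) := by
    ext w
    rw [Subgroup.mem_subgroupOf, Subgroup.mem_inf, Subgroup.mem_centralizer_singleton_iff,
      Subgroup.mem_centralizer_singleton_iff]
    constructor
    · intro h
      exact ⟨w.2, congrArg Subtype.val h⟩
    · intro h
      exact Subtype.ext h.2
  rw [e, Nat.card_congr (Subgroup.subgroupOfEquivOfLe inf_le_left).toEquiv] at c2
  rw [c2, sq]

end Cfsg.Agent.Lib.H73TsCenYG
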