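import Cfsg.Agent.Lib.H73TgDefs

set_option autoImplicit false

namespace Cfsg.Agent.Lib.H73TsCommLe

open Cfsg.Agent.Lib.H73TgDefs

/-- PURE MATHLIB.  `Subgroup.commutator_le`: for `x = a * g^k`, `y = b * g^j` in `P` show `⁅x, y⁆ ∈ N`: in `G ⧸ N` (`haveI := hN`) `mk x = mk g ^ k`, `mk y = mk g ^ j` commute; `QuotientGroup.eq_one_iff`, `map_commutatorElement`/`commutatorElement_def`. -/
theorem comm_le {G : Type*} [Group G] (P N : Subgroup G) (hN : N.Normal) (g : G)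
    (hg : ∀ x ∈ P, ∃ k : ℤ, ∃ a ∈ N, x = a * g ^ k) : ⁅P, P⁆ ≤ N := by
  rw [Subgroup.commutator_le]
  intro x hx y hy
  obtain ⟨k, a, ha, rfl⟩ := hg x hx
  obtain ⟨j, b, hb, rfl⟩ := hg y hy
  rw [← QuotientGroup.eq_one_iff, commutatorElement_def]
  have ea : ((a : G) : G ⧸ N) = 1 := (QuotientGroup.eq_one_iff a).2 ha
  have eb : ((b : G) : G ⧸ N) = 1 := (QuotientGroup.eq_one_iff b).2 hb
  simp only [QuotientGroup.mk_mul, QuotientGroup.mk_inv, QuotientGroup.mk_zpow, ea, eb, one_mul]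
  have hc : Commute ((g : G ⧸ N) ^ k) ((g : G ⧸ N) ^ j) := (Commute.refl _).zpow_zpow k j
  rw [hc.eq, mul_inv_cancel_right, mul_inv_cancel]

end Cfsg.Agent.Lib.H73TsCommLe
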