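import Cfsg.Agent.Lib.H73TgDefs

set_option autoImplicit false

namespace Cfsg.Agent.Lib.H73TsGen2

open Cfsg.Agent.Lib.H73TgDefs

/-- PURE MATHLIB: copy of the landed `Cfsg/Agent/Lib/H73TgGen.lean` (second half).  `B := A ⊔ frattini Q` is normal; `B.index ∣ Nat.card Q = p^k` (`Subgroup.index_dvd_card`, `IsPGroup.iff_card`), so `B.index = p^i`; `p^i ≤ p` forces `i ≤ 1`: index `1` or `p`.
Index `1`: `A = ⊤` by `frattini_nongenerating`, `g = 1`.  Index `p`: `Q ⧸ B` cyclic of prime order generated by `mk g`; `(A ⊔ zpowers g) ⊔ frattini Q = ⊤`; `frattini_nongenerating`. -/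
theorem exists_gen2 {Q : Type*} [Group Q] [Finite Q] {p : ℕ} [Fact p.Prime] (hQ : IsPGroup p Q) (A : Subgroup Q) [A.Normal]
    (h : (A ⊔ frattini Q).index ≤ p) : ∃ g : Q, A ⊔ Subgroup.zpowers g = ⊤ := by
  have hp : p.Prime := Fact.out
  have hfn : (frattini Q).Normal := inferInstance
  obtain ⟨B, hB⟩ : ∃ B : Subgroup Q, B = A ⊔ frattini Q := ⟨_, rfl⟩
  have hBn : B.Normal := by rw [hB]; infer_instance
  rw [← hB] at h
  obtain ⟨n, hn⟩ := IsPGroup.iff_card.1 hQ
  have hdvd : B.index ∣ p ^ n := by rw [← hn]; exact Subgroup.index_dvd_card B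
  obtain ⟨k, hk, hk2⟩ := (Nat.dvd_prime_pow hp).1 hdvd
  have hk' : k = 0 ∨ k = 1 := by
    rcases Nat.lt_or_ge k 2 with h' | h'
    · omega
    · exfalso
      rw [hk2] at h
      have h3 : p ^ 2 ≤ p ^ k := Nat.pow_le_pow_right hp.pos h'
      have h4 : p * 2 ≤ p * p := Nat.mul_le_mul_left p hp.two_le
      have h5 : 0 < p := hp.pos
      nlinarith
  rcases hk' with rfl | rfl
  · rw [pow_zero, Subgroup.index_eq_one] at hk2
    refine ⟨1, ?_⟩
    have : A = ⊤ := frattini_nongenerating (by rw [← hB]; exact hk2)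
    rw [this]; simp
  · rw [pow_one] at hk2
    have hcard : Nat.card (Q ⧸ B) = p := hk2
    have hcyc : IsCyclic (Q ⧸ B) := isCyclic_of_prime_card hcard
    obtain ⟨γ, hγ⟩ := hcyc.exists_generator
    obtain ⟨g, rfl⟩ := QuotientGroup.mk_surjective γ
    refine ⟨g, ?_⟩
    apply frattini_nongenerating
    have h1 : B ⊔ Subgroup.zpowers g = ⊤ := by
      rw [eq_top_iff]
      intro x _
      obtain ⟨k, hk⟩ := Subgroup.mem_zpowers_iff.1 (hγ (QuotientGroup.mk x))
      have h2 : x * (g ^ k)⁻¹ ∈ B := by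
        rw [← QuotientGroup.eq_one_iff, QuotientGroup.mk_mul, QuotientGroup.mk_inv,
          QuotientGroup.mk_zpow, hk, mul_inv_cancel]
      have h3 : x = (x * (g ^ k)⁻¹) * g ^ k := by group
      rw [h3]
      exact mul_mem (Subgroup.mem_sup_left h2) (Subgroup.mem_sup_right (Subgroup.zpow_mem_zpowers g k))
    rw [← h1, hB, sup_assoc, sup_assoc, sup_comm (Subgroup.zpowers g)]

end Cfsg.Agent.Lib.H73TsGen2
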