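import Cfsg.Agent.Lib.H73TgDefs
import Cfsg.Agent.Lib.H73TsCommGen

set_option autoImplicit false

namespace Cfsg.Agent.Lib.H73TsKill

open Cfsg.Agent.Lib.H73TgDefs

/-- `R := ψ.ker.map Q.subtype ≤ Q`.  `H73TsCommGen.comm_le Q R y`: for `a b ∈ Q`, `ψ ⟨a b a⁻¹ b⁻¹, _⟩ = 1` since `E` is commutative; `ψ ⟨y a y⁻¹ a⁻¹, _⟩ = ψ (conjNormal y ⟨a,_⟩) * (ψ ⟨a,_⟩)⁻¹ = 1` by `hψ` (`MulAut.conjNormal_apply`, `Subtype.ext`).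
So `(q : P) ∈ commutator P ≤ R` gives `q' ∈ ψ.ker` with `(q' : P) = q`, `q' = q`. -/
theorem kill {P : Type*} [Group P] [Finite P] (Q : Subgroup P) [Q.Normal] {E : Type*} [CommGroup E] (ψ : ↥Q →* E) (y : P)
    (hgen : ∀ x : P, ∃ k : ℤ, ∃ a ∈ Q, x = a * y ^ k) (hψ : ∀ q : ↥Q, ψ (MulAut.conjNormal y q) = ψ q) :
    ∀ q : ↥Q, (q : P) ∈ commutator P → ψ q = 1 := by
  have hRQ : ψ.ker.map Q.subtype ≤ Q := by
    intro x hx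
    obtain ⟨q, _, rfl⟩ := Subgroup.mem_map.1 hx
    exact q.2
  have hle : commutator P ≤ ψ.ker.map Q.subtype := by
    apply Cfsg.Agent.Lib.H73TsCommGen.comm_le Q (ψ.ker.map Q.subtype) y hRQ hgen
    · intro a ha b hb
      refine Subgroup.mem_map.2 ⟨(⟨a, ha⟩ : Q) * ⟨b, hb⟩ * (⟨a, ha⟩ : Q)⁻¹ * (⟨b, hb⟩ : Q)⁻¹, ?_, rfl⟩
      rw [MonoidHom.mem_ker, map_mul, map_mul, map_mul, map_inv, map_inv]
      rw [mul_comm (ψ ⟨a, ha⟩) (ψ ⟨b, hb⟩)]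
      simp
    · intro a ha
      refine Subgroup.mem_map.2 ⟨MulAut.conjNormal y (⟨a, ha⟩ : Q) * (⟨a, ha⟩ : Q)⁻¹, ?_, ?_⟩
      · rw [MonoidHom.mem_ker, map_mul, map_inv, hψ, mul_inv_cancel]
      · simp [MulAut.conjNormal_apply]
  intro q hq
  obtain ⟨q', hq', hqq⟩ := Subgroup.mem_map.1 (hle hq)
  have : q' = q := Subtype.ext hqq
  rw [← this]
  exact hq'

end Cfsg.Agent.Lib.H73TsKill
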