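import Cfsg.Agent.Lib.H73TgDefs

set_option autoImplicit false

namespace Cfsg.Agent.Lib.H73TsPsi

open Cfsg.Agent.Lib.H73TgDefs

/-- PURE MATHLIB.  `ψ q = ∏ i < n, θ (y^i q y^-i)`. -/
theorem exists_psi {P : Type*} [Group P] (Q : Subgroup P) [Q.Normal] {E : Type*} [CommGroup E] (θ : ↥Q →* E) (y : P) (n : ℕ)
    (hn : 0 < n) (hy : y ^ n ∈ Q) :
    ∃ ψ : ↥Q →* E, (∀ q : ↥Q, ψ (MulAut.conjNormal y q) = ψ q) ∧
      ∀ q : ↥Q, (∀ i : ℕ, 0 < i → i < n → θ (MulAut.conjNormal (y ^ i) q) = 1) → ψ q = θ q := by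
  refine ⟨∏ i ∈ Finset.range n, θ.comp (MulAut.conjNormal (y ^ i) : ↥Q ≃* ↥Q).toMonoidHom, ?_, ?_⟩
  · intro q
    rw [MonoidHom.finset_prod_apply, MonoidHom.finset_prod_apply]
    have e1 : ∀ i, (θ.comp (MulAut.conjNormal (y ^ i) : ↥Q ≃* ↥Q).toMonoidHom) (MulAut.conjNormal y q)
        = θ (MulAut.conjNormal (y ^ (i + 1)) q) := by
      intro i
      rw [pow_succ, map_mul]
      rfl
    have e2 : ∀ i, (θ.comp (MulAut.conjNormal (y ^ i) : ↥Q ≃* ↥Q).toMonoidHom) q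
        = θ (MulAut.conjNormal (y ^ i) q) := fun i => rfl
    simp only [e1, e2]
    have h1 := Finset.prod_range_succ' (fun i => θ (MulAut.conjNormal (y ^ i) q)) n
    have h2 := Finset.prod_range_succ (fun i => θ (MulAut.conjNormal (y ^ i) q)) n
    have h3 : θ (MulAut.conjNormal (y ^ n) q) = θ q := by
      have : MulAut.conjNormal (y ^ n) q = ⟨y ^ n, hy⟩ * q * ⟨y ^ n, hy⟩⁻¹ := by
        apply Subtype.ext
        rw [MulAut.conjNormal_apply]
        rfl
      rw [this, map_mul, map_mul, map_inv, mul_comm (θ _) (θ q), mul_inv_cancel_right]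
    have h4 : θ (MulAut.conjNormal (y ^ 0) q) = θ q := by simp
    rw [h1] at h2
    simp only [h3, h4] at h2
    exact mul_right_cancel h2
  · intro q hq
    rw [MonoidHom.finset_prod_apply]
    rw [Finset.prod_eq_single 0]
    · simp
    · intro i hi h0
      exact hq i (Nat.pos_of_ne_zero h0) (Finset.mem_range.mp hi)
    · intro h
      exact absurd (Finset.mem_range.mpr hn) h

end Cfsg.Agent.Lib.H73TsPsi
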