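import Cfsg.Agent.Lib.H73TgDefs
import Cfsg.Agent.Lib.H73TsPsi
import Cfsg.Agent.Lib.H73TsKill
import Cfsg.Agent.Lib.H73TsGen2
import Cfsg.Agent.Lib.H73TsGenY
import Cfsg.Agent.Lib.H73TgAb
import Cfsg.Agent.Lib.Helper3PGroup

set_option autoImplicit false

namespace Cfsg.Agent.Lib.H73TsCore

open Cfsg.Agent.Lib.H73TgDefs
open scoped commutatorElement

/-- Core lemma: see notes/helper73/ts. -/
theorem core {P : Type*} [Group P] [Finite P] {p : ℕ} [Fact p.Prime] (hP : IsPGroup p P) (Q Q0 A : Subgroup P) [Q.Normal]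
    (hQ : Q.index = p) (hPc : (commutator P).index = p ^ 2) (hQ0 : Q0 ≤ Q) (hA : A ≤ Q)
    (hAn : Q ≤ Subgroup.normalizer (A : Set P)) (hsup : Q ≤ Q0 ⊔ A)
    (hconj : ∀ u : P, u ∉ Q → ∀ a ∈ Q0, u * a * u⁻¹ ∈ A) : ⁅Q, Q⁆ ≤ A := by
  have hp : p.Prime := Fact.out
  have hQne : Q ≠ ⊤ := by
    intro h
    rw [h, Subgroup.index_top] at hQ
    exact hp.one_lt.ne hQ
  obtain ⟨y, hy⟩ : ∃ y : P, y ∉ Q := by
    by_contra hcon
    exact hQne (eq_top_iff.2 fun x _ => by_contra fun hx => hcon ⟨x, hx⟩)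
  obtain ⟨hgen, hyp, hyi⟩ := Cfsg.Agent.Lib.H73TsGenY.gen_y Q hQ y hy
  have hQp : IsPGroup p ↥Q := hP.to_subgroup Q
  haveI hA'n : (A.subgroupOf Q).Normal := Subgroup.normal_subgroupOf_of_le_normalizer hAn
  set A' : Subgroup ↥Q := A.subgroupOf Q with hA'
  set B : Subgroup ↥Q := A' ⊔ frattini ↥Q with hB
  haveI hBn : B.Normal := by rw [hB]; infer_instance
  have hcB : commutator ↥Q ≤ B :=
    (Cfsg.Agent.Lib.Helper3PGroup.commutator_le_frattini hQp).trans le_sup_right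
  letI : CommGroup (↥Q ⧸ B) :=
    { (inferInstance : Group (↥Q ⧸ B)) with
      mul_comm := by
        intro a b
        obtain ⟨a, rfl⟩ := QuotientGroup.mk_surjective a
        obtain ⟨b, rfl⟩ := QuotientGroup.mk_surjective b
        rw [← QuotientGroup.mk_mul, ← QuotientGroup.mk_mul, QuotientGroup.eq]
        apply hcB
        rw [commutator_def]
        have : (a * b)⁻¹ * (b * a) = ⁅b⁻¹, a⁻¹⁆ := by
          rw [commutatorElement_def]; group
        rw [this]
        exact Subgroup.commutator_mem_commutator (Subgroup.mem_top _) (Subgroup.mem_top _) }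
  set θ : ↥Q →* (↥Q ⧸ B) := QuotientGroup.mk' B with hθ
  obtain ⟨ψ, hψ1, hψ2⟩ := Cfsg.Agent.Lib.H73TsPsi.exists_psi Q θ y p hp.pos hyp
  have hθA : ∀ q : ↥Q, (q : P) ∈ A → θ q = 1 := by
    intro q hq
    rw [hθ, QuotientGroup.mk'_apply, QuotientGroup.eq_one_iff]
    exact (le_sup_left : A' ≤ B) (Subgroup.mem_subgroupOf.2 hq)
  have hψQ0 : ∀ q : ↥Q, (q : P) ∈ Q0 → ψ q = θ q := by
    intro q hq
    apply hψ2
    intro i hi0 hip
    apply hθA
    rw [MulAut.conjNormal_apply]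
    exact hconj _ (hyi i hi0 hip) _ hq
  -- θ restricted to Q0 is onto
  have hsurj : Function.Surjective ψ := by
    intro e
    obtain ⟨q, rfl⟩ := QuotientGroup.mk_surjective e
    have hq : q ∈ (Q0.subgroupOf Q) ⊔ A' := by
      have h1 : (Q0.subgroupOf Q) ⊔ A' = ⊤ := by
        rw [hA', ← Subgroup.subgroupOf_sup hQ0 hA]
        exact Subgroup.subgroupOf_eq_top.2 hsup
      rw [h1]; trivial
    rw [Subgroup.mem_sup_of_normal_right] at hq
    obtain ⟨a, ha, b, hb, rfl⟩ := hq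
    refine ⟨a, ?_⟩
    rw [hψQ0 a (Subgroup.mem_subgroupOf.1 ha)]
    have : θ (a * b) = θ a := by
      rw [map_mul, hθA b (Subgroup.mem_subgroupOf.1 hb), mul_one]
    exact this.symm
  have hkill := Cfsg.Agent.Lib.H73TsKill.kill Q ψ y hgen hψ1
  have hker : (commutator P).subgroupOf Q ≤ ψ.ker := by
    intro q hq
    exact hkill q (Subgroup.mem_subgroupOf.1 hq)
  have hcQ : commutator P ≤ Q := by
    haveI : Fact (Nat.card (P ⧸ Q)).Prime := ⟨by rw [← Subgroup.index_eq_card, hQ]; exact hp⟩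
    haveI : IsCyclic (P ⧸ Q) := isCyclic_of_prime_card (p := Nat.card (P ⧸ Q)) rfl
    rw [commutator_def, Subgroup.commutator_le]
    intro a _ b _
    rw [← QuotientGroup.eq_one_iff, commutatorElement_def]
    simp only [QuotientGroup.mk_mul, QuotientGroup.mk_inv]
    have hc : (QuotientGroup.mk a : P ⧸ Q) * QuotientGroup.mk b = QuotientGroup.mk b * QuotientGroup.mk a :=
      (IsCyclic.isMulCommutative (α := P ⧸ Q)).is_comm.comm _ _
    rw [hc]; group
  have hrel : (commutator P).relIndex Q = p := by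
    have h1 := Subgroup.relIndex_mul_index hcQ
    rw [hQ, hPc, pow_two] at h1
    exact Nat.eq_of_mul_eq_mul_right hp.pos h1
  have hidx : B.index ≤ p := by
    have h1 : ψ.ker.index = Nat.card (↥Q ⧸ B) := by
      rw [Subgroup.index_ker, MonoidHom.range_eq_top.2 hsurj, Subgroup.card_top]
    have h2 : ψ.ker.index ∣ ((commutator P).subgroupOf Q).index := Subgroup.index_dvd_of_le hker
    have h3 : ((commutator P).subgroupOf Q).index = p := hrel
    rw [Subgroup.index_eq_card, ← h1]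
    rw [h3] at h2
    exact Nat.le_of_dvd hp.pos h2
  obtain ⟨g, hg⟩ := Cfsg.Agent.Lib.H73TsGen2.exists_gen2 hQp A' hidx
  rw [Subgroup.commutator_le]
  intro a ha b hb
  have := Cfsg.Agent.Lib.H73TgAb.comm_mem A' g hg ⟨a, ha⟩ ⟨b, hb⟩
  rw [commutatorElement_def]
  exact Subgroup.mem_subgroupOf.1 this

end Cfsg.Agent.Lib.H73TsCore
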