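import Cfsg.Agent.Lib.H73TgDefs

set_option autoImplicit false

namespace Cfsg.Agent.Lib.H73TsMaxP

open Cfsg.Agent.Lib.H73TgDefs

/-- PURE MATHLIB.  `T ≤ P₁` for a Sylow `P₁` (`hT.exists_le_sylow`), `g • P = P₁` (`MulAction.exists_smul_eq`).  `N ⊓ P₁` is the image of `N ⊓ P` under conjugation by `g` (`N` normal), so `Nat.card (N ⊓ P₁) = Nat.card (N ⊓ P)`.
`N ⊓ P ≤ T ≤ N ⊓ P₁`, finite of equal card, so `N ⊓ P = T` (`Subgroup.eq_of_le_of_card_ge`), in particular `T ≤ P`. -/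
theorem le_of_pgroup {G : Type*} [Group G] [Finite G] {p : ℕ} [Fact p.Prime] (P : Sylow p G) (N : Subgroup G) (hN : N.Normal)
    (T : Subgroup G) (hT : IsPGroup p T) (hTN : T ≤ N) (hQT : N ⊓ (P : Subgroup G) ≤ T) : T ≤ (P : Subgroup G) := by
  obtain ⟨P₁, hP₁⟩ := hT.exists_le_sylow
  obtain ⟨g, hg⟩ := MulAction.exists_smul_eq G P P₁
  have hmap : (P₁ : Subgroup G) = (P : Subgroup G).map (MulAut.conj g).toMonoidHom := by
    rw [← hg, Sylow.coe_subgroup_smul]
    rfl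
  have himg : N ⊓ (P₁ : Subgroup G) = (N ⊓ (P : Subgroup G)).map (MulAut.conj g).toMonoidHom := by
    ext x
    rw [hmap]
    constructor
    · rintro ⟨hxN, y, hy, rfl⟩
      refine ⟨y, ⟨?_, hy⟩, rfl⟩
      have := hN.conj_mem _ hxN g⁻¹
      simpa [MulAut.conj_apply, mul_assoc] using this
    · rintro ⟨y, ⟨hyN, hyP⟩, rfl⟩
      refine ⟨?_, y, hyP, rfl⟩
      have := hN.conj_mem _ hyN g
      simpa [MulAut.conj_apply] using this
  have hcard : Nat.card (N ⊓ (P₁ : Subgroup G) : Subgroup G) = Nat.card (N ⊓ (P : Subgroup G) : Subgroup G) := by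
    rw [himg]
    exact Subgroup.card_map_of_injective (MulAut.conj g).injective
  have hle : T ≤ N ⊓ (P₁ : Subgroup G) := le_inf hTN hP₁
  have hcT : Nat.card T ≤ Nat.card (N ⊓ (P : Subgroup G) : Subgroup G) := by
    rw [← hcard]
    exact Subgroup.card_le_of_le hle
  have heq := Subgroup.eq_of_le_of_card_ge hQT hcT
  rw [← heq]
  exact inf_le_right

end Cfsg.Agent.Lib.H73TsMaxP
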