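import Cfsg.Agent.Lib.H73TgDefs
import Cfsg.Agent.Lib.H73TsMaxP

set_option autoImplicit false

namespace Cfsg.Agent.Lib.H73TsDec

open Cfsg.Agent.Lib.H73TgDefs

/-- Sylow subgroup of a direct product.  `Q := N ⊓ P`.  Elements of `A` and `B` commute (`a b a⁻¹ b⁻¹ ∈ A ⊓ B = ⊥`, using `hAn`, `hBn`, `A, B ≤ N`).  Let `x ∈ Q`; `x ∈ N ≤ A ⊔ B`, so `x = a * b`, `a ∈ A`, `b ∈ B` (`B` is normalised by `A ≤ N`: `Subgroup.mem_sup_of_normal_right`-style / `Subgroup.sup_eq_closure_mul`, or work in `↥N`).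
`QA := {a ∈ A | ∃ b ∈ B, a * b ∈ Q}` is a subgroup (projection of `Q`; use commutation), a `p`-group (`(a b)^(p^k) = a^(p^k) b^(p^k) = 1` forces `a^(p^k) ∈ A ⊓ B = ⊥`), normalised by `Q` (for `q = a' b' ∈ Q`: `q a q⁻¹ = a' a a'⁻¹`, and `(a' a a'⁻¹)(b' b b'⁻¹) = q (a b) q⁻¹ ∈ Q`).
So `T := Q ⊔ QA` is a `p`-group (`IsPGroup.to_sup_of_normal_right'`) inside `N`, containing `Q`: `H73TsMaxP.le_of_pgroup` gives `QA ≤ P`.  Hence `a ∈ A ⊓ P` and `b = a⁻¹ x ∈ B ⊓ P`. -/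
theorem dec {G : Type*} [Group G] [Finite G] {p : ℕ} [Fact p.Prime] (P : Sylow p G) (N A B : Subgroup G) (hN : N.Normal)
    (hA : A ≤ N) (hB : B ≤ N) (hAn : N ≤ Subgroup.normalizer (A : Set G)) (hBn : N ≤ Subgroup.normalizer (B : Set G))
    (hd : A ⊓ B = ⊥) (hs : N ≤ A ⊔ B) :
    ∀ x ∈ N ⊓ (P : Subgroup G), ∃ a ∈ A ⊓ (P : Subgroup G), ∃ b ∈ B ⊓ (P : Subgroup G), x = a * b := by
  classical
  have hnA : ∀ n ∈ N, ∀ a ∈ A, n * a * n⁻¹ ∈ A := fun n hn a ha =>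
    ((Subgroup.mem_normalizer_iff.mp (hAn hn)) a).mp ha
  have hnB : ∀ n ∈ N, ∀ b ∈ B, n * b * n⁻¹ ∈ B := fun n hn b hb =>
    ((Subgroup.mem_normalizer_iff.mp (hBn hn)) b).mp hb
  have hcomm : ∀ a ∈ A, ∀ b ∈ B, a * b = b * a := by
    intro a ha b hb
    have h1 : a * b * a⁻¹ * b⁻¹ ∈ A ⊓ B := by
      constructor
      · have h2 := A.mul_mem ha (hnA b (hB hb) a⁻¹ (A.inv_mem ha))
        simpa [mul_assoc] using h2
      · exact B.mul_mem (hnB a (hA ha) b hb) (B.inv_mem hb)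
    rw [hd, Subgroup.mem_bot] at h1
    have h3 := mul_inv_eq_one.mp h1
    exact mul_inv_eq_iff_eq_mul.mp h3
  -- decomposition
  let AB : Subgroup G :=
    { carrier := {x | ∃ a ∈ A, ∃ b ∈ B, x = a * b}
      one_mem' := ⟨1, A.one_mem, 1, B.one_mem, by simp⟩
      mul_mem' := by
        rintro _ _ ⟨a, ha, b, hb, rfl⟩ ⟨a', ha', b', hb', rfl⟩
        refine ⟨a * a', A.mul_mem ha ha', b * b', B.mul_mem hb hb', ?_⟩
        rw [mul_assoc a a', ← mul_assoc a' b b', hcomm a' ha' b hb]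
        simp only [mul_assoc]
      inv_mem' := by
        rintro _ ⟨a, ha, b, hb, rfl⟩
        refine ⟨a⁻¹, A.inv_mem ha, b⁻¹, B.inv_mem hb, ?_⟩
        rw [hcomm a ha b hb, mul_inv_rev] }
  have hAB : A ⊔ B ≤ AB := by
    refine sup_le ?_ ?_
    · intro a ha
      exact ⟨a, ha, 1, B.one_mem, by simp⟩
    · intro b hb
      exact ⟨1, A.one_mem, b, hb, by simp⟩
  let QA : Subgroup G :=
    { carrier := {a | a ∈ A ∧ ∃ b ∈ B, a * b ∈ N ⊓ (P : Subgroup G)}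
      one_mem' := ⟨A.one_mem, 1, B.one_mem, by simp only [mul_one]; exact one_mem _⟩
      mul_mem' := by
        rintro a a' ⟨ha, b, hb, hab⟩ ⟨ha', b', hb', hab'⟩
        refine ⟨A.mul_mem ha ha', b * b', B.mul_mem hb hb', ?_⟩
        have h : a * a' * (b * b') = (a * b) * (a' * b') := by
          rw [mul_assoc a a', ← mul_assoc a' b b', hcomm a' ha' b hb]
          simp only [mul_assoc]
        rw [h]
        exact mul_mem hab hab'
      inv_mem' := by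
        rintro a ⟨ha, b, hb, hab⟩
        refine ⟨A.inv_mem ha, b⁻¹, B.inv_mem hb, ?_⟩
        have h : a⁻¹ * b⁻¹ = (a * b)⁻¹ := by rw [hcomm a ha b hb, mul_inv_rev]
        rw [h]
        exact inv_mem hab }
  have hQAp : IsPGroup p QA := by
    rintro ⟨a, ha, b, hb, hab⟩
    obtain ⟨k, hk⟩ := P.isPGroup' ⟨a * b, hab.2⟩
    refine ⟨k, ?_⟩
    have hk' : (a * b) ^ (p ^ k) = 1 := by
      have := congrArg Subtype.val hk
      simpa using this
    have hc : Commute a b := hcomm a ha b hb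
    rw [hc.mul_pow] at hk'
    have h1 : a ^ (p ^ k) = (b ^ (p ^ k))⁻¹ := eq_inv_of_mul_eq_one_left hk'
    have h2 : a ^ (p ^ k) ∈ A ⊓ B :=
      ⟨A.pow_mem ha _, by rw [h1]; exact B.inv_mem (B.pow_mem hb _)⟩
    rw [hd, Subgroup.mem_bot] at h2
    apply Subtype.ext
    simpa using h2
  have hQp : IsPGroup p (N ⊓ (P : Subgroup G) : Subgroup G) :=
    P.isPGroup'.to_le inf_le_right
  have hconj : ∀ q ∈ N ⊓ (P : Subgroup G), ∀ h ∈ QA, q * h * q⁻¹ ∈ QA := by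
    rintro q hq a ⟨ha, b, hb, hab⟩
    refine ⟨hnA q hq.1 a ha, q * b * q⁻¹, hnB q hq.1 b hb, ?_⟩
    have h : q * a * q⁻¹ * (q * b * q⁻¹) = q * (a * b) * q⁻¹ := by group
    rw [h]
    exact mul_mem (mul_mem hq hab) (inv_mem hq)
  have hnorm : N ⊓ (P : Subgroup G) ≤ Subgroup.normalizer (QA : Set G) := by
    intro q hq
    rw [Subgroup.mem_normalizer_iff]
    intro h
    constructor
    · exact hconj q hq h
    · intro hh
      have := hconj q⁻¹ (inv_mem hq) _ hh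
      simpa [mul_assoc] using this
  have hT : IsPGroup p (N ⊓ (P : Subgroup G) ⊔ QA : Subgroup G) :=
    IsPGroup.to_sup_of_normal_right' hQp hQAp hnorm
  have hTN : (N ⊓ (P : Subgroup G) ⊔ QA : Subgroup G) ≤ N :=
    sup_le inf_le_left (fun a ha => hA ha.1)
  have hTP := H73TsMaxP.le_of_pgroup P N hN _ hT hTN le_sup_left
  intro x hx
  obtain ⟨a, ha, b, hb, rfl⟩ := hAB (hs hx.1)
  have haP : a ∈ (P : Subgroup G) := hTP (le_sup_right (a := N ⊓ (P : Subgroup G)) (show a ∈ QA from ⟨ha, b, hb, hx⟩))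
  have hbP : b ∈ (P : Subgroup G) := by
    have := mul_mem (inv_mem haP) hx.2
    simpa using this
  exact ⟨a, ⟨ha, haP⟩, b, ⟨hb, hbP⟩, rfl⟩

end Cfsg.Agent.Lib.H73TsDec
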