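import Cfsg.Agent.Lib.H73TgDefs
import Cfsg.Agent.Lib.H73TsAS3
import Cfsg.Agent.Lib.Helper27Balance

set_option autoImplicit false

namespace Cfsg.Agent.Lib.H73TsF1

open Cfsg.Agent.Lib.H73TgDefs

/-- `C := layer G ⊓ centralizer K`.
(1) `z ∈ K ⊓ C` commutes with `K`, and with every component `L ≠ K` (`Helper27Basic.comp_comm`, `comm_eq_bot_iff`, as `z ∈ K`), so `layer G = sSup {components} ≤ centralizer {z}` (`sSup_le`), i.e. `z ∈ centralizer (layer G) = ⊥` (`H73TsAS3.centralizer_layer hF`).
(2) `sSup_le`: a component `L` is `K` (`le_sup_left`) or commutes with `K`, then `L ≤ layer G ⊓ centralizer K` (`le_sSup`, `comm_eq_bot_iff`).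
(3) `Helper27PComp.layer_le_normalizer_comp hK`.
(4) `n ∈ layer G` normalises `layer G` and `K`, hence `centralizer K` (`c` commutes with `K` ⟹ `n c n⁻¹` commutes with `n K n⁻¹ = K`); `Subgroup.le_normalizer_iff`-style / `Subgroup.mem_normalizer_iff`. -/
theorem f1 {G : Type*} [Group G] [Finite G] (hF : Cfsg.fittingSubgroup G = ⊥) (K : Subgroup G) (hK : Cfsg.IsComponent K) :
    K ⊓ (Cfsg.layer G ⊓ Subgroup.centralizer (K : Set G)) = ⊥ ∧
    Cfsg.layer G ≤ K ⊔ (Cfsg.layer G ⊓ Subgroup.centralizer (K : Set G)) ∧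
    Cfsg.layer G ≤ Subgroup.normalizer (K : Set G) ∧
    Cfsg.layer G ≤ Subgroup.normalizer ((Cfsg.layer G ⊓ Subgroup.centralizer (K : Set G) : Subgroup G) : Set G) := by
  have hN := Cfsg.Agent.Lib.Helper27PComp.layer_le_normalizer_comp hK
  refine ⟨?_, ?_, hN, ?_⟩
  · rw [eq_bot_iff]
    intro z hz
    have hzK : z ∈ K := hz.1
    have hzC : z ∈ Subgroup.centralizer (K : Set G) := (Subgroup.mem_inf.1 hz.2).2
    have hle : Cfsg.layer G ≤ Subgroup.centralizer {z} := by
      unfold Cfsg.layer
      apply sSup_le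
      intro L hL x hx
      rw [Subgroup.mem_centralizer_singleton_iff]
      by_cases hLK : L = K
      · subst hLK
        rw [Subgroup.mem_centralizer_iff] at hzC
        exact hzC x hx
      · have := Cfsg.Agent.Lib.Helper27Basic.comp_comm hL hK hLK
        exact (Cfsg.Agent.Lib.Helper27Basic.comm_eq_bot_iff.1 this) x hx z hzK
    have hzc : z ∈ Subgroup.centralizer ((Cfsg.layer G : Subgroup G) : Set G) := by
      rw [Subgroup.mem_centralizer_iff]
      intro x hx
      have := hle hx
      rw [Subgroup.mem_centralizer_singleton_iff] at this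
      exact this
    rw [H73TsAS3.centralizer_layer hF] at hzc
    exact hzc
  · conv_lhs => unfold Cfsg.layer
    apply sSup_le
    intro L hL
    by_cases hLK : L = K
    · rw [hLK]; exact le_sup_left
    · refine le_trans ?_ le_sup_right
      refine le_inf (le_sSup hL) ?_
      intro x hx
      rw [Subgroup.mem_centralizer_iff]
      intro k hk
      have := Cfsg.Agent.Lib.Helper27Basic.comp_comm hL hK hLK
      exact ((Cfsg.Agent.Lib.Helper27Basic.comm_eq_bot_iff.1 this) x hx k hk).symm
  · intro n hn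
    have hnK := hN hn
    have key : ∀ m ∈ Cfsg.layer G, ∀ c ∈ (Cfsg.layer G ⊓ Subgroup.centralizer (K : Set G) : Subgroup G),
        m * c * m⁻¹ ∈ (Cfsg.layer G ⊓ Subgroup.centralizer (K : Set G) : Subgroup G) := by
      intro m hm c hc
      obtain ⟨hc1, hc2⟩ := Subgroup.mem_inf.1 hc
      refine Subgroup.mem_inf.2 ⟨mul_mem (mul_mem hm hc1) (inv_mem hm), ?_⟩
      rw [Subgroup.mem_centralizer_iff] at hc2 ⊢
      intro k hk
      have hk' : m⁻¹ * k * m ∈ K := by
        have := (Subgroup.mem_normalizer_iff.1 (inv_mem (hN hm)) k).1 hk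
        simpa using this
      have h2 := hc2 _ hk'
      calc k * (m * c * m⁻¹) = m * ((m⁻¹ * k * m) * c) * m⁻¹ := by group
        _ = m * (c * (m⁻¹ * k * m)) * m⁻¹ := by rw [h2]
        _ = m * c * m⁻¹ * k := by group
    rw [Subgroup.mem_normalizer_iff]
    intro c
    constructor
    · intro hc
      exact key n hn c hc
    · intro hc
      have := key n⁻¹ (inv_mem hn) _ hc
      have e : n⁻¹ * (n * c * n⁻¹) * n⁻¹⁻¹ = c := by group
      rwa [e] at this

end Cfsg.Agent.Lib.H73TsF1
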