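import Cfsg.Agent.Lib.H73TgDefs
import Cfsg.Agent.Lib.H73TsCycF
import Cfsg.Agent.Lib.Helper3PGroup

set_option autoImplicit false

namespace Cfsg.Agent.Lib.H73TsFrC

open Cfsg.Agent.Lib.H73TgDefs

/-- `commutator P ≤ frattini P` (`Helper3PGroup.commutator_le_frattini hP`), so `(frattini P).index ∣ p^2` (`Subgroup.index_dvd_of_le`).  By `(Nat.dvd_prime_pow Fact.out).1` it is `p^i`, `i ≤ 2`; `i ≤ 1` gives `∣ p`, so `P` is commutative
(`H73TsCycF.comm_of_index`), against `hna`.  So both indices are `p^2`, and `H ≤ K` with equal finite index gives `H = K` (`Subgroup.relIndex_mul_index`, `Subgroup.relIndex_eq_one`, or compare cards with `Subgroup.card_mul_index` and `Subgroup.eq_of_le_of_card_ge`). -/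
theorem frattini_eq {P : Type*} [Group P] [Finite P] {p : ℕ} [Fact p.Prime] (hP : IsPGroup p P)
    (hna : ¬ ∀ x y : P, x * y = y * x) (hidx : (commutator P).index = p ^ 2) : frattini P = commutator P := by
  have hp : p.Prime := Fact.out
  have hle := Cfsg.Agent.Lib.Helper3PGroup.commutator_le_frattini hP
  have hdvd : (frattini P).index ∣ p ^ 2 := by rw [← hidx]; exact Subgroup.index_dvd_of_le hle
  obtain ⟨k, hk, hk2⟩ := (Nat.dvd_prime_pow hp).1 hdvd
  have hk' : k = 2 := by
    by_contra hne
    have h1 : k ≤ 1 := by omega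
    apply hna
    apply H73TsCycF.comm_of_index (p := p)
    rw [hk2]
    calc p ^ k ∣ p ^ 1 := pow_dvd_pow p h1
      _ = p := pow_one p
  subst hk'
  have h1 : (commutator P).relIndex (frattini P) * (frattini P).index = (commutator P).index :=
    Subgroup.relIndex_mul_index hle
  rw [hk2, hidx] at h1
  have h2 : (commutator P).relIndex (frattini P) = 1 :=
    Nat.eq_of_mul_eq_mul_right (pow_pos hp.pos 2) (by rw [h1, one_mul])
  exact le_antisymm (Subgroup.relIndex_eq_one.1 h2) hle

end Cfsg.Agent.Lib.H73TsFrC
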