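import Cfsg.Agent.Lib.H73TgDefs
import Cfsg.Agent.Lib.H73TsCore
import Cfsg.Agent.Lib.H73TsDec
import Cfsg.Agent.Lib.H73TsF1
import Cfsg.Agent.Lib.H73TsRel
import Cfsg.Agent.Lib.Helper29Layer

set_option autoImplicit false

namespace Cfsg.Agent.Lib.H73TsGlue

open Cfsg.Agent.Lib.H73TgDefs
open scoped commutatorElement

/-- Transport of the core lemma to the Sylow subgroup: see notes/helper73/ts. -/
theorem comm_le_centralizer {G : Type*} [Group G] [Finite G] {p : ℕ} [Fact p.Prime] (P : Sylow p G)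
    (hF : Cfsg.fittingSubgroup G = ⊥) (hidx1 : (Cfsg.layer G ⊓ (P : Subgroup G)).relIndex (P : Subgroup G) = p)
    (hidx : (⁅(P : Subgroup G), (P : Subgroup G)⁆).relIndex (P : Subgroup G) = p ^ 2)
    (K : Subgroup G) (hK : Cfsg.IsComponent K)
    (hmove : ∀ u ∈ (P : Subgroup G), u ∉ Cfsg.layer G → K.map (MulAut.conj u).toMonoidHom ≠ K) :
    ⁅Cfsg.layer G ⊓ (P : Subgroup G), Cfsg.layer G ⊓ (P : Subgroup G)⁆ ≤ Subgroup.centralizer (K : Set G) := by
  have hNn : (Cfsg.layer G).Normal := Cfsg.Agent.Lib.Helper27Balance.layer_normal G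
  obtain ⟨hf1, hf2, hf3, hf4⟩ := Cfsg.Agent.Lib.H73TsF1.f1 hF K hK
  have hKN : K ≤ Cfsg.layer G := le_sSup hK
  set N : Subgroup G := Cfsg.layer G with hN
  set C : Subgroup G := N ⊓ Subgroup.centralizer (K : Set G) with hC
  haveI : ((N ⊓ (P : Subgroup G)).subgroupOf (P : Subgroup G)).Normal := by
    constructor
    intro n hn g
    rw [Subgroup.mem_subgroupOf] at hn ⊢
    refine ⟨?_, (g * n * g⁻¹).2⟩
    have := hNn.conj_mem _ hn.1 (g : G)
    simpa using this
  have key := Cfsg.Agent.Lib.H73TsCore.core (p := p) P.2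
    ((N ⊓ (P : Subgroup G)).subgroupOf (P : Subgroup G))
    ((K ⊓ (P : Subgroup G)).subgroupOf (P : Subgroup G))
    ((C ⊓ (P : Subgroup G)).subgroupOf (P : Subgroup G))
    hidx1
    (by rw [← Cfsg.Agent.Lib.H73TsRel.relIndex_comm]; exact hidx)
    (by
      intro x hx
      rw [Subgroup.mem_subgroupOf] at hx ⊢
      exact ⟨hKN hx.1, hx.2⟩)
    (by
      intro x hx
      rw [Subgroup.mem_subgroupOf] at hx ⊢
      exact ⟨hx.1.1, hx.2⟩)
    (by
      intro x hx
      rw [Subgroup.mem_subgroupOf] at hx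
      have hxn := hf4 hx.1
      rw [Subgroup.mem_normalizer_iff] at hxn ⊢
      intro c
      rw [Subgroup.mem_subgroupOf, Subgroup.mem_subgroupOf]
      constructor
      · intro hc
        refine ⟨?_, (x * c * x⁻¹).2⟩
        have := (hxn (c : G)).1 hc.1
        simpa using this
      · intro hc
        refine ⟨?_, c.2⟩
        apply (hxn (c : G)).2
        have := hc.1
        simpa using this)
    (by
      intro x hx
      rw [Subgroup.mem_subgroupOf] at hx
      obtain ⟨a, ha, b, hb, hab⟩ := Cfsg.Agent.Lib.H73TsDec.dec P N K C hNn hKN inf_le_left hf3 hf4 hf1 hf2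
        (x : G) hx
      have hx' : x = (⟨a, ha.2⟩ : ↥(P : Subgroup G)) * ⟨b, hb.2⟩ := Subtype.ext hab
      rw [hx']
      exact Subgroup.mul_mem_sup (Subgroup.mem_subgroupOf.2 ha) (Subgroup.mem_subgroupOf.2 hb))
    (by
      intro u hu a ha
      rw [Subgroup.mem_subgroupOf] at ha ⊢
      have huN : (u : G) ∉ N := fun h => hu (Subgroup.mem_subgroupOf.2 ⟨h, u.2⟩)
      have hne := hmove (u : G) u.2 huN
      have hK' : Cfsg.IsComponent (K.map (MulAut.conj (u : G)).toMonoidHom) :=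
        Cfsg.Agent.Lib.Helper29Layer.isComponent_map_equiv (MulAut.conj (u : G)) hK
      have hcomm := Cfsg.Agent.Lib.Helper27Basic.comp_comm hK' hK hne
      rw [Cfsg.Agent.Lib.Helper27Basic.comm_eq_bot_iff] at hcomm
      have hmem : (u : G) * (a : G) * (u : G)⁻¹ ∈ K.map (MulAut.conj (u : G)).toMonoidHom :=
        ⟨(a : G), ha.1, by simp [MulAut.conj_apply]⟩
      refine ⟨⟨?_, ?_⟩, (u * a * u⁻¹).2⟩
      · have : (u : G) * (a : G) * (u : G)⁻¹ ∈ N := (le_sSup hK' : _ ≤ Cfsg.layer G) hmem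
        simpa using this
      · change ((u * a * u⁻¹ : ↥(P : Subgroup G)) : G) ∈ Subgroup.centralizer (K : Set G)
        rw [Subgroup.mem_centralizer_iff]
        intro k hk
        have := hcomm _ hmem k hk
        simpa using this.symm)
  rw [Subgroup.commutator_le]
  intro a ha b hb
  have h1 : ⁅(⟨a, ha.2⟩ : ↥(P : Subgroup G)), ⟨b, hb.2⟩⁆ ∈ (C ⊓ (P : Subgroup G)).subgroupOf (P : Subgroup G) :=
    key (Subgroup.commutator_mem_commutator (Subgroup.mem_subgroupOf.2 ha) (Subgroup.mem_subgroupOf.2 hb))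
  rw [Subgroup.mem_subgroupOf] at h1
  have h2 := h1.1.2
  simpa [commutatorElement_def] using h2

end Cfsg.Agent.Lib.H73TsGlue
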