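import Cfsg.Agent.Lib.H73TgDefs
import Cfsg.Agent.Lib.H73TsFrC
import Cfsg.Agent.Lib.H73TsRel

set_option autoImplicit false

namespace Cfsg.Agent.Lib.H73TsHypOf

open Cfsg.Agent.Lib.H73TgDefs

/-- `H73TsRel.relIndex_comm` turns `hidx` into `(commutator ↥P).index = p^2`; `H73TsFrC.frattini_eq P.2` (not commutative: otherwise `⟨⟨..⟩⟩ : IsMulCommutative ↥P`) gives `frattini ↥P = commutator ↥P`;
`Phi P = (frattini ↥P).map P.subtype = (commutator ↥P).map P.subtype = ⁅P, P⁆` (`Subgroup.map_subtype_commutator`).  Then `Hyp` is `⟨hna, by index, hcore, by rw; exact hcore'⟩`. -/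
theorem hyp_of {G : Type*} [Group G] [Finite G] {p : ℕ} [Fact p.Prime] (P : Sylow p G)
    (hna : ¬ IsMulCommutative (P : Subgroup G)) (hcore : Cfsg.pPrimeCore p G = ⊥)
    (hcore' : (⁅(P : Subgroup G), (P : Subgroup G)⁆).normalCore = ⊥)
    (hidx : (⁅(P : Subgroup G), (P : Subgroup G)⁆).relIndex (P : Subgroup G) = p ^ 2) :
    Hyp p P ∧ Phi P = ⁅(P : Subgroup G), (P : Subgroup G)⁆ := by
  have hidx' : (commutator ↥(P : Subgroup G)).index = p ^ 2 := by
    rw [← H73TsRel.relIndex_comm]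
    exact hidx
  have hna' : ¬ ∀ x y : ↥(P : Subgroup G), x * y = y * x := fun hc => hna ⟨⟨hc⟩⟩
  have hfr := H73TsFrC.frattini_eq P.2 hna' hidx'
  have hPhi : Phi P = ⁅(P : Subgroup G), (P : Subgroup G)⁆ := by
    unfold Phi
    rw [hfr, Subgroup.map_subtype_commutator]
  refine ⟨⟨hna, ?_, hcore, ?_⟩, hPhi⟩
  · rw [hfr]; exact hidx'
  · rw [hPhi]; exact hcore'

end Cfsg.Agent.Lib.H73TsHypOf
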