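import Cfsg.Agent.Lib.H73TgDefs

set_option autoImplicit false

namespace Cfsg.Agent.Lib.H73TsIdx

open Cfsg.Agent.Lib.H73TgDefs

/-- PURE MATHLIB.  `D := ⁅P, P⁆ ≤ Q := N ⊓ P ≤ P` (`Subgroup.commutator_le_self`-style: `⁅P,P⁆ ≤ P`).  `Subgroup.relIndex_mul_relIndex D Q P : D.relIndex Q * Q.relIndex P = D.relIndex P = p^2`.
`D.relIndex Q ≠ 1` (`Subgroup.relIndex_eq_one : H.relIndex K = 1 ↔ K ≤ H`, `h2`), `Q.relIndex P ≠ 1` (`h3`: `P ≤ N ⊓ P` would give `P ≤ N`).  Two factors `≠ 1` of `p^2` are both `p`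
(`(Nat.dvd_prime_pow Fact.out).1 (Dvd.intro _ h)` gives `p^i`, `i ≤ 2`, `interval_cases i`). -/
theorem idx {G : Type*} [Group G] [Finite G] {p : ℕ} [Fact p.Prime] (P N : Subgroup G)
    (hidx : (⁅P, P⁆).relIndex P = p ^ 2) (h1 : ⁅P, P⁆ ≤ N) (h2 : ¬ N ⊓ P ≤ ⁅P, P⁆) (h3 : ¬ P ≤ N) :
    (N ⊓ P).relIndex P = p ∧ (⁅P, P⁆).relIndex (N ⊓ P) = p := by
  have hp : p.Prime := Fact.out
  have hDP : ⁅P, P⁆ ≤ P := by
    rw [Subgroup.commutator_le]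
    intro a ha b hb
    exact P.mul_mem (P.mul_mem (P.mul_mem ha hb) (P.inv_mem ha)) (P.inv_mem hb)
  have hDQ : ⁅P, P⁆ ≤ N ⊓ P := le_inf h1 hDP
  have hmul : (⁅P, P⁆).relIndex (N ⊓ P) * (N ⊓ P).relIndex P = p ^ 2 := by
    rw [← hidx]
    exact Subgroup.relIndex_mul_relIndex _ _ _ hDQ inf_le_right
  have ha1 : (⁅P, P⁆).relIndex (N ⊓ P) ≠ 1 := fun h => h2 (Subgroup.relIndex_eq_one.1 h)
  have hb1 : (N ⊓ P).relIndex P ≠ 1 := fun h =>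
    h3 ((Subgroup.relIndex_eq_one.1 h).trans inf_le_left)
  obtain ⟨i, hi, hi2⟩ := (Nat.dvd_prime_pow hp).1 (Dvd.intro _ hmul)
  obtain ⟨j, hj, hj2⟩ := (Nat.dvd_prime_pow hp).1 (Dvd.intro_left _ hmul)
  rw [hi2, hj2, ← pow_add] at hmul
  have hij : i + j = 2 := Nat.pow_right_injective hp.two_le hmul
  have hi0 : i ≠ 0 := by
    rintro rfl
    exact ha1 (by rw [hi2, pow_zero])
  have hj0 : j ≠ 0 := by
    rintro rfl
    exact hb1 (by rw [hj2, pow_zero])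
  have hi1 : i = 1 := by omega
  have hj1 : j = 1 := by omega
  rw [hi2, hj2, hi1, hj1, pow_one]
  exact ⟨rfl, rfl⟩

end Cfsg.Agent.Lib.H73TsIdx
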