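import Cfsg.Agent.Lib.H73TgDefs
import Cfsg.Agent.Lib.H73TsAS
import Cfsg.Agent.Lib.H73TgTrans
import Cfsg.Agent.Lib.Helper27Balance

set_option autoImplicit false

namespace Cfsg.Agent.Lib.H73TsMove

open Cfsg.Agent.Lib.H73TgDefs

/-- Suppose `K.map (conj u) = K`, i.e. `u ∈ normalizer K` (`Subgroup.mem_normalizer_iff_map_conj_eq`-style, see `Helper27Core.mem_normalizer_of_cj_eq`).  `T := P ⊓ normalizer K` contains `Q := layer G ⊓ P` (`Helper27PComp.layer_le_normalizer_comp`) and `u ∉ Q`.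
`Subgroup.relIndex_mul_relIndex Q T P : Q.relIndex T * T.relIndex P = p`; `Q.relIndex T ≠ 1` (`Subgroup.relIndex_eq_one`), `p` prime, so `T.relIndex P = 1`, `P ≤ normalizer K`.
By `H73TgTrans.trans P h hF K L`, every component is `L = K.map (conj x) = K` (`x ∈ P ≤ normalizer K`).  So all components are equal: `H73TsAS.false_of_one_comp hF _ hnas` (`Nontrivial G`: `K ≠ ⊥`, or from `h.na`). -/
theorem move {G : Type*} [Group G] [Finite G] {p : ℕ} [Fact p.Prime] (P : Sylow p G) (h : Hyp p P)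
    (hnas : ¬ ∃ S : Subgroup G, S.Normal ∧ IsSimpleGroup S ∧ ¬ IsMulCommutative S ∧ Subgroup.centralizer (S : Set G) = ⊥)
    (hF : Cfsg.fittingSubgroup G = ⊥) (hidx1 : (Cfsg.layer G ⊓ (P : Subgroup G)).relIndex (P : Subgroup G) = p)
    (K : Subgroup G) (hK : Cfsg.IsComponent K) (u : G) (hu : u ∈ (P : Subgroup G)) (huN : u ∉ Cfsg.layer G) :
    K.map (MulAut.conj u).toMonoidHom ≠ K := by
  intro hKu
  have hp : p.Prime := Fact.out
  have huK : u ∈ Subgroup.normalizer (K : Set G) := Subgroup.mem_normalizer_iff_map_conj_eq.mpr hKu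
  have hQT : Cfsg.layer G ⊓ (P : Subgroup G) ≤ (P : Subgroup G) ⊓ Subgroup.normalizer (K : Set G) :=
    le_inf inf_le_right (inf_le_left.trans (Cfsg.Agent.Lib.Helper27PComp.layer_le_normalizer_comp hK))
  have hTP : (P : Subgroup G) ⊓ Subgroup.normalizer (K : Set G) ≤ (P : Subgroup G) := inf_le_left
  have hmul := Subgroup.relIndex_mul_relIndex _ _ _ hQT hTP
  rw [hidx1] at hmul
  have h1 : (Cfsg.layer G ⊓ (P : Subgroup G)).relIndex ((P : Subgroup G) ⊓ Subgroup.normalizer (K : Set G)) ≠ 1 := by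
    intro h
    rw [Subgroup.relIndex_eq_one] at h
    exact huN (h ⟨hu, huK⟩).1
  have h2 : ((P : Subgroup G) ⊓ Subgroup.normalizer (K : Set G)).relIndex (P : Subgroup G) = 1 := by
    rcases (Nat.dvd_prime hp).1 (Dvd.intro _ hmul) with h | h
    · exact absurd h h1
    · rw [h] at hmul
      exact Nat.eq_of_mul_eq_mul_left hp.pos (by rw [hmul, mul_one])
  rw [Subgroup.relIndex_eq_one] at h2
  have hPK : (P : Subgroup G) ≤ Subgroup.normalizer (K : Set G) := h2.trans inf_le_right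
  have hall : ∀ L : Subgroup G, Cfsg.IsComponent L → L = K := by
    intro L hL
    obtain ⟨x, hx, rfl⟩ := H73TgTrans.trans P h hF K L hK hL
    exact Subgroup.mem_normalizer_iff_map_conj_eq.mp (hPK hx)
  have hnt : Nontrivial G := by
    by_contra hcon
    rw [not_nontrivial_iff_subsingleton] at hcon
    have : Subsingleton (Subgroup G) := Subgroup.subsingleton_iff.2 hcon
    exact (Cfsg.Agent.Lib.Helper27Basic.isComponent_iff.1 hK).2.ne_bot (Subsingleton.elim _ _)
  exact H73TsAS.false_of_one_comp hF (fun K1 K2 h1 h2 => (hall K1 h1).trans (hall K2 h2).symm) hnas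

end Cfsg.Agent.Lib.H73TsMove
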