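import Cfsg.Agent.Lib.H73TgDefs
import Cfsg.Agent.Lib.H73TsAS
import Cfsg.Agent.Lib.H73TgTrans
import Cfsg.Agent.Lib.Helper27Balance

set_option autoImplicit false

namespace Cfsg.Agent.Lib.H73TsNotLe

open Cfsg.Agent.Lib.H73TgDefs

/-- Suppose `P ≤ layer G`.  Then `P ≤ normalizer K` for every component `K` (`Helper27PComp.layer_le_normalizer_comp`), so by `H73TgTrans.trans P h hF K L` every component `L = K.map (conj x) = K`; `H73TsAS.false_of_one_comp hF _ hnas`
(`Nontrivial G` from `h.na`: a subsingleton group has commutative subgroups). -/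
theorem not_le {G : Type*} [Group G] [Finite G] {p : ℕ} [Fact p.Prime] (P : Sylow p G) (h : Hyp p P)
    (hnas : ¬ ∃ S : Subgroup G, S.Normal ∧ IsSimpleGroup S ∧ ¬ IsMulCommutative S ∧ Subgroup.centralizer (S : Set G) = ⊥)
    (hF : Cfsg.fittingSubgroup G = ⊥) : ¬ (P : Subgroup G) ≤ Cfsg.layer G := by
  intro hPl
  have hone : ∀ K L : Subgroup G, Cfsg.IsComponent K → Cfsg.IsComponent L → K = L := by
    intro K L hK hL
    obtain ⟨x, hx, rfl⟩ := H73TgTrans.trans P h hF K L hK hL
    exact (Subgroup.mem_normalizer_iff_map_conj_eq.mp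
      (Cfsg.Agent.Lib.Helper27PComp.layer_le_normalizer_comp hK (hPl hx))).symm
  have hnt : Nontrivial G := by
    by_contra hcon
    rw [not_nontrivial_iff_subsingleton] at hcon
    exact h.na ⟨⟨fun a b => Subsingleton.elim _ _⟩⟩
  exact H73TsAS.false_of_one_comp hF hone hnas

end Cfsg.Agent.Lib.H73TsNotLe
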