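import Cfsg.Agent.Lib.H73TgDefs
import Cfsg.Agent.Lib.H73TsGlue
import Cfsg.Agent.Lib.H73TsMove
import Cfsg.Agent.Lib.H73TsAS3

set_option autoImplicit false

namespace Cfsg.Agent.Lib.H73TsQAb

open Cfsg.Agent.Lib.H73TgDefs
open scoped commutatorElement

/-- `Q = layer G ⊓ P` is abelian. -/
theorem q_comm {G : Type*} [Group G] [Finite G] {p : ℕ} [Fact p.Prime] (P : Sylow p G) (h : Hyp p P)
    (hnas : ¬ ∃ S : Subgroup G, S.Normal ∧ IsSimpleGroup S ∧ ¬ IsMulCommutative S ∧ Subgroup.centralizer (S : Set G) = ⊥)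
    (hF : Cfsg.fittingSubgroup G = ⊥) (hidx1 : (Cfsg.layer G ⊓ (P : Subgroup G)).relIndex (P : Subgroup G) = p)
    (hidx : (⁅(P : Subgroup G), (P : Subgroup G)⁆).relIndex (P : Subgroup G) = p ^ 2) :
    ∀ a ∈ Cfsg.layer G ⊓ (P : Subgroup G), ∀ b ∈ Cfsg.layer G ⊓ (P : Subgroup G), a * b = b * a := by
  intro a ha b hb
  have hz : ⁅a, b⁆ ∈ Subgroup.centralizer ((Cfsg.layer G : Subgroup G) : Set G) := by
    have hle : Cfsg.layer G ≤ Subgroup.centralizer ({⁅a, b⁆} : Set G) := by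
      apply sSup_le
      intro K hK
      have h1 := Cfsg.Agent.Lib.H73TsGlue.comm_le_centralizer P hF hidx1 hidx K hK
        (Cfsg.Agent.Lib.H73TsMove.move P h hnas hF hidx1 K hK)
      have h2 := h1 (Subgroup.commutator_mem_commutator ha hb)
      intro k hk
      rw [Subgroup.mem_centralizer_iff]
      intro z hz
      rw [Set.mem_singleton_iff] at hz
      subst hz
      exact ((Subgroup.mem_centralizer_iff.1 h2) k hk).symm
    rw [Subgroup.mem_centralizer_iff]
    intro n hn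
    exact ((Subgroup.mem_centralizer_iff.1 (hle hn)) _ rfl).symm
  rw [Cfsg.Agent.Lib.H73TsAS3.centralizer_layer hF, Subgroup.mem_bot] at hz
  exact commutatorElement_eq_one_iff_mul_comm.1 hz

end Cfsg.Agent.Lib.H73TsQAb
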