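import Mathlib
import Cfsg.Agent.S0514
import Cfsg.Agent.Lib.Helper74BSWDefs
import Cfsg.Agent.Lib.Helper1Fitting

/-! PROJECT 74 (BSW), part 2, piece `DihC`: `C(t) = O S` with `O = O(C(t))`. -/

set_option autoImplicit false

namespace Cfsg.Agent.Lib.H74BSWDihC

open Cfsg.Agent.Lib.Helper74BSWDefs

theorem cent_struct {G : Type*} [Group G] [Finite G] (S : Sylow 2 G) (n : ℕ) (hn : 2 ≤ n)
    (hS : Nonempty ((S : Subgroup G) ≃* DihedralGroup n)) (t : G) (ht : orderOf t = 2)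
    (htS : t ∈ (S : Subgroup G)) (htZ : ∀ s ∈ (S : Subgroup G), s * t = t * s) (O : Subgroup G)
    (hO : O = (Cfsg.oddCore (Subgroup.centralizer ({t} : Set G))).map (Subgroup.centralizer ({t} : Set G)).subtype) :
    O ≤ C t ∧ (S : Subgroup G) ≤ C t ∧ (∀ g ∈ C t, ∀ y ∈ O, g * y * g⁻¹ ∈ O) ∧ Odd (Nat.card O) ∧
      ∀ g ∈ C t, ∃ y ∈ O, ∃ σ ∈ (S : Subgroup G), g = y * σ := by
  classical
  subst hO
  have : Fact (Nat.Prime 2) := ⟨Nat.prime_two⟩
  obtain ⟨N, hNn, hNodd, k, hk⟩ := Cfsg.Agent.S0514.result S n hn hS t ht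
  show _ ≤ Subgroup.centralizer ({t} : Set G) ∧ (S : Subgroup G) ≤ Subgroup.centralizer ({t} : Set G) ∧
    (∀ g ∈ Subgroup.centralizer ({t} : Set G), _) ∧ _ ∧ (∀ g ∈ Subgroup.centralizer ({t} : Set G), _)
  generalize hH : Subgroup.centralizer ({t} : Set G) = H at *
  have hSH : (S : Subgroup G) ≤ H := by
    intro s hs
    rw [← hH, Subgroup.mem_centralizer_iff]
    intro h hh
    rw [Set.mem_singleton_iff.1 hh]
    exact (htZ s hs).symm
  have hOn : (Cfsg.oddCore H).Normal := Cfsg.Agent.Lib.Helper1Fitting.pPrimeCore_normal 2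
  have hOc : (Nat.card (Cfsg.oddCore H)).Coprime 2 :=
    Cfsg.Agent.Lib.Helper1Fitting.card_pPrimeCore_coprime 2
  have hNO : N ≤ Cfsg.oddCore H :=
    Cfsg.Agent.Lib.Helper1Fitting.le_pPrimeCore hNn (Nat.coprime_two_right.2 hNodd)
  have hcardO : Nat.card ((Cfsg.oddCore H).map H.subtype) = Nat.card (Cfsg.oddCore H) :=
    Subgroup.card_map_of_injective H.subtype_injective
  -- the index of the core is a power of two
  obtain ⟨j, -, hj⟩ : ∃ j, j ≤ k ∧ (Cfsg.oddCore H).index = 2 ^ j := by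
    have h1 : (Cfsg.oddCore H).index ∣ 2 ^ k := hk ▸ Subgroup.index_dvd_of_le hNO
    exact (Nat.dvd_prime_pow Nat.prime_two).1 h1
  have hcardH : Nat.card (Cfsg.oddCore H) * 2 ^ j = Nat.card H := by
    rw [← hj]
    exact Subgroup.card_mul_index _
  have hcardS' : Nat.card ((S : Subgroup G).subgroupOf H) = Nat.card (S : Subgroup G) :=
    Nat.card_congr (Subgroup.subgroupOfEquivOfLe hSH).toEquiv
  have hcardS : Nat.card (S : Subgroup G) = 2 ^ (Nat.card G).factorization 2 :=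
    S.card_eq_multiplicity
  have hSj : Nat.card (S : Subgroup G) = 2 ^ j := by
    apply Nat.dvd_antisymm
    · have h1 : Nat.card (S : Subgroup G) ∣ Nat.card (Cfsg.oddCore H) * 2 ^ j := by
        rw [hcardH, ← hcardS']
        exact Subgroup.card_subgroup_dvd_card _
      refine Nat.Coprime.dvd_of_dvd_mul_left ?_ h1
      rw [hcardS]
      exact (Nat.Coprime.pow_right _ hOc).symm
    · rw [hcardS]
      have h1 : 2 ^ j ∣ Nat.card G :=
        (Dvd.intro_left _ hcardH).trans (Subgroup.card_subgroup_dvd_card H)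
      exact pow_dvd_pow 2 ((Nat.Prime.pow_dvd_iff_le_factorization Nat.prime_two
        Nat.card_pos.ne').1 h1)
  have hcompl : Subgroup.IsComplement' (Cfsg.oddCore H) ((S : Subgroup G).subgroupOf H) := by
    apply Subgroup.isComplement'_of_coprime
    · rw [hcardS', hSj, hcardH]
    · rw [hcardS', hSj]
      exact Nat.Coprime.pow_right _ hOc
  refine ⟨Subgroup.map_subtype_le _, hSH, ?_, ?_, ?_⟩
  · intro g hg y hy
    obtain ⟨y', hy', rfl⟩ := Subgroup.mem_map.1 hy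
    exact Subgroup.mem_map.2 ⟨⟨g, hg⟩ * y' * ⟨g, hg⟩⁻¹, hOn.conj_mem y' hy' ⟨g, hg⟩, rfl⟩
  · rw [hcardO]
    exact Nat.coprime_two_right.1 hOc
  · intro g hg
    obtain ⟨⟨a, b⟩, hab, -⟩ := Subgroup.isComplement_iff_existsUnique.1 hcompl ⟨g, hg⟩
    refine ⟨((a : H) : G), Subgroup.mem_map.2 ⟨a, a.2, rfl⟩, ((b : H) : G), ?_, ?_⟩
    · exact Subgroup.mem_subgroupOf.1 b.2
    · exact (congrArg Subtype.val hab).symm

end Cfsg.Agent.Lib.H74BSWDihC
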