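import Mathlib
import Cfsg.Agent.S0107
import Cfsg.Agent.Lib.Helper2Residual

/-! PROJECT 74 (BSW), part 2, piece `DihI` (2 h): a simple group with dihedral Sylow 2-subgroups has one class of involutions.
`|S| = 2n` is a power of 2, so `n = 2^m`, `m ≥ 1`.  `G` is not abelian (`S` is not cyclic).
`m ≥ 2`: `S0107.result` with `pResidual 2 G = ⊤`: `pResidual 2 G` is a normal subgroup (closure of a conjugation invariant set); it is not `⊥`, otherwise every element of odd order is trivial and `G` is a 2-group, which is not simple non-abelian (nontrivial centre).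
`m = 1`: `S` is a four-group (abelian).  If `N(S) ≤ C(S)`, Burnside (`MonoidHom.ker_transferSylow_isComplement'`) gives a normal complement, which is `⊥` or `⊤` by simplicity: impossible (`G ≠ S`, `S ≠ 1`).  So some `g ∈ N(S)` acts non-trivially on `S`; replacing `g` by its odd part (the 2-part of `g` lies in a Sylow 2-subgroup of `N(S)`, i.e. in `S ≤ C(S)`)
we get an automorphism of odd order `≠ 1` of the four-group, which permutes the three involutions transitively.  Every involution of `G` is conjugate into `S` (Sylow).  (Look for landed versions: S1255, S3864, S1254, `Burnside fusion`.) -/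

set_option autoImplicit false

namespace Cfsg.Agent.Lib.H74BSWDihI

theorem not_pgroup {G : Type*} [Group G] [Finite G] [IsSimpleGroup G] (h4 : 4 ≤ Nat.card G) :
    ¬ IsPGroup 2 G := by
  intro hP
  have : Fact (Nat.Prime 2) := ⟨Nat.prime_two⟩
  have hc := hP.center_nontrivial
  have hctop : Subgroup.center G = ⊤ := by
    rcases (inferInstance : (Subgroup.center G).Normal).eq_bot_or_eq_top with h | h
    · exact absurd h ((Subgroup.nontrivial_iff_ne_bot _).1 hc)
    · exact h
  obtain ⟨k, hk⟩ := (IsPGroup.iff_card).1 hP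
  have h2 : 2 ∣ Nat.card G := by
    rw [hk]
    rcases k with _ | k
    · rw [hk] at h4; norm_num at h4
    · exact Dvd.intro_left _ (pow_succ 2 k).symm
  obtain ⟨u, hu⟩ := exists_prime_orderOf_dvd_card' 2 h2
  have hn : (Subgroup.zpowers u).Normal := by
    constructor
    intro n hn g
    have hg : n ∈ Subgroup.center G := hctop ▸ Subgroup.mem_top n
    rw [Subgroup.mem_center_iff] at hg
    rw [hg g, mul_inv_cancel_right]
    exact hn
  rcases hn.eq_bot_or_eq_top with h | h
  · rw [Subgroup.zpowers_eq_bot] at h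
    rw [h, orderOf_one] at hu
    norm_num at hu
  · have := Nat.card_zpowers u
    rw [h, Subgroup.card_top, hu] at this
    omega

theorem exists_conj_mem {G : Type*} [Group G] [Finite G] (S : Sylow 2 G) (x : G) (hx : orderOf x = 2) :
    ∃ g : G, g * x * g⁻¹ ∈ S := by
  have : Fact (Nat.Prime 2) := ⟨Nat.prime_two⟩
  have hP : IsPGroup 2 (Subgroup.zpowers x) := by
    apply IsPGroup.of_card (n := 1)
    rw [Nat.card_zpowers, hx, pow_one]
  obtain ⟨Q, hQ⟩ := hP.exists_le_sylow
  obtain ⟨g, hg⟩ := MulAction.exists_smul_eq G Q S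
  refine ⟨g, ?_⟩
  rw [← hg]
  have hxQ : x ∈ Q := hQ (Subgroup.mem_zpowers x)
  have := Subgroup.smul_mem_pointwise_smul x (MulAut.conj g) (Q : Subgroup G) hxQ
  have h2 : g * x * g⁻¹ ∈ ((g • Q : Sylow 2 G) : Subgroup G) := by
    rw [Sylow.smul_def, Sylow.pointwise_smul_def]
    simpa [MulAut.smul_def] using this
  exact h2

/-- the four-group case -/
theorem four_case {G : Type*} [Group G] [Finite G] [IsSimpleGroup G] (S : Sylow 2 G)
    (e : (S : Subgroup G) ≃* DihedralGroup 2) :
    ∀ x y : G, x ∈ S → y ∈ S → x ≠ 1 → y ≠ 1 → IsConj x y := by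
  have : Fact (Nat.Prime 2) := ⟨Nat.prime_two⟩
  have hcardS : Nat.card S = 4 := by
    rw [Nat.card_congr e.toEquiv, DihedralGroup.nat_card]
  have hcomm : ∀ a b : G, a ∈ S → b ∈ S → a * b = b * a := by
    intro a b ha hb
    have h : ∀ a b : DihedralGroup 2, a * b = b * a := by decide
    have h1 := h (e ⟨a, ha⟩) (e ⟨b, hb⟩)
    rw [← map_mul, ← map_mul] at h1
    exact congrArg Subtype.val (e.injective h1)
  have hsq : ∀ a : G, a ∈ S → a * a = 1 := by
    intro a ha
    have h : ∀ a : DihedralGroup 2, a * a = 1 := by decide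
    have h1 := h (e ⟨a, ha⟩)
    rw [← map_mul, ← map_one e] at h1
    exact congrArg Subtype.val (e.injective h1)
  have hthree : ∀ a b c : G, a ∈ S → b ∈ S → c ∈ S → a ≠ 1 → b ≠ 1 → a ≠ b → c ≠ 1 → c ≠ a →
      c = b ∨ c = a * b := by
    intro a b c ha hb hc ha1 hb1 hab hc1 hca
    have h : ∀ a b c : DihedralGroup 2, a ≠ 1 → b ≠ 1 → a ≠ b → c ≠ 1 → c ≠ a → c = b ∨ c = a * b := by
      decide
    have key : ∀ (u v : G) (hu : u ∈ S) (hv : v ∈ S), u ≠ v → e ⟨u, hu⟩ ≠ e ⟨v, hv⟩ := by
      intro u v hu hv huv h'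
      exact huv (congrArg Subtype.val (e.injective h'))
    have k1 : ∀ (u : G) (hu : u ∈ S), u ≠ 1 → e ⟨u, hu⟩ ≠ 1 := by
      intro u hu hu1 h'
      rw [← map_one e] at h'
      exact hu1 (congrArg Subtype.val (e.injective h'))
    rcases h (e ⟨a, ha⟩) (e ⟨b, hb⟩) (e ⟨c, hc⟩) (k1 a ha ha1) (k1 b hb hb1) (key a b ha hb hab)
      (k1 c hc hc1) (key c a hc ha hca) with h' | h'
    · left; exact congrArg Subtype.val (e.injective h')
    · right
      rw [← map_mul] at h'
      exact congrArg Subtype.val (e.injective h')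
  have hcard4 : 4 ≤ Nat.card G := by
    rw [← hcardS]
    exact Nat.le_of_dvd Nat.card_pos (Subgroup.card_subgroup_dvd_card _)
  -- Burnside
  have hnot : ¬ (Subgroup.normalizer ((S : Subgroup G) : Set G) ≤ Subgroup.centralizer ((S : Subgroup G) : Set G)) := by
    intro hP
    have hc := MonoidHom.ker_transferSylow_isComplement' S hP
    have hcm := hc.card_mul_card
    rcases (inferInstance : (MonoidHom.transferSylow S hP).ker.Normal).eq_bot_or_eq_top with h | h
    · rw [h, Subgroup.card_bot, one_mul] at hcm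
      apply not_pgroup hcard4
      have htop : (S : Subgroup G) = ⊤ := Subgroup.eq_top_of_card_eq _ hcm
      have := S.2
      rw [htop] at this
      exact this.of_equiv Subgroup.topEquiv
    · rw [h, Subgroup.card_top, hcardS] at hcm
      have : 0 < Nat.card G := Nat.card_pos
      omega
  rw [SetLike.not_le_iff_exists] at hnot
  obtain ⟨g, hgN, hgC⟩ := hnot
  have hconj : ∀ (h : G), h ∈ Subgroup.normalizer ((S : Subgroup G) : Set G) → ∀ u ∈ S, h * u * h⁻¹ ∈ S := by
    intro h hh u hu
    exact (Subgroup.mem_normalizer_iff.1 hh u).1 hu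
  -- Claim A
  have claimA : ∀ u ∈ S, u ≠ 1 → g * u * g⁻¹ ≠ u := by
    intro u hu hu1 hfix
    apply hgC
    have hg2 : g ^ 2 ∈ Subgroup.centralizer ((S : Subgroup G) : Set G) := by
      rw [Subgroup.mem_centralizer_iff]
      intro v hv
      have hv' : v ∈ S := hv
      have goal : g * (g * v * g⁻¹) * g⁻¹ = v → v * g ^ 2 = g ^ 2 * v := by
        intro h
        have : g ^ 2 * v * (g ^ 2)⁻¹ = v := by
          calc g ^ 2 * v * (g ^ 2)⁻¹ = g * (g * v * g⁻¹) * g⁻¹ := by
                rw [pow_two, mul_inv_rev]; simp only [mul_assoc]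
            _ = v := h
        rw [mul_inv_eq_iff_eq_mul] at this
        exact this.symm
      apply goal
      by_cases hv1 : v = 1
      · subst hv1; group
      by_cases hvu : v = u
      · subst hvu; rw [hfix, hfix]
      have hw := hconj g hgN v hv'
      have hw1 : g * v * g⁻¹ ≠ 1 := by
        intro h
        apply hv1
        have : v = g⁻¹ * (g * v * g⁻¹) * g := by group
        rw [this, h]; group
      have hwu : g * v * g⁻¹ ≠ u := by
        intro h
        apply hvu
        rw [← hfix] at h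
        have := mul_right_cancel h
        exact mul_left_cancel this
      rcases hthree u v _ hu hv' hw hu1 hv1 (Ne.symm hvu) hw1 hwu with h | h
      · rw [h, h]
      · rw [h]
        have : g * (u * v) * g⁻¹ = (g * u * g⁻¹) * (g * v * g⁻¹) := by group
        rw [this, hfix, h, ← mul_assoc, hsq u hu, one_mul]
    obtain ⟨k, m, hm, hkm⟩ := Nat.exists_eq_two_pow_mul_odd (orderOf_pos g).ne'
    have hgm : g ^ m ∈ Subgroup.centralizer ((S : Subgroup G) : Set G) := by
      have hP : IsPGroup 2 (Subgroup.zpowers (g ^ m)) := by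
        apply IsPGroup.of_card (n := k)
        rw [Nat.card_zpowers, orderOf_pow_of_dvd (by rintro rfl; simp at hm) (hkm ▸ dvd_mul_left _ _), hkm]
        exact Nat.mul_div_cancel _ hm.pos
      have h1 := hP.inf_normalizer_sylow S
      have h2 : g ^ m ∈ Subgroup.zpowers (g ^ m) ⊓ (S : Subgroup G) := by
        rw [← h1]
        exact ⟨Subgroup.mem_zpowers _, Subgroup.pow_mem _ hgN m⟩
      have h3 : g ^ m ∈ S := h2.2
      rw [Subgroup.mem_centralizer_iff]
      intro v hv
      exact hcomm v _ hv h3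
    obtain ⟨j, rfl⟩ := hm
    have : g = ((g ^ 2) ^ j)⁻¹ * g ^ (2 * j + 1) := by
      rw [← pow_mul, pow_succ]; group
    rw [this]
    exact Subgroup.mul_mem _ (Subgroup.inv_mem _ (Subgroup.pow_mem _ hg2 j)) hgm
  intro x y hx hy hx1 hy1
  by_cases hxy : x = y
  · subst hxy; exact IsConj.refl x
  have hne1 : ∀ v : G, v ≠ 1 → g * v * g⁻¹ ≠ 1 := by
    intro v hv1 h
    apply hv1
    have : v = g⁻¹ * (g * v * g⁻¹) * g := by group
    rw [this, h]; group
  rcases hthree x y _ hx hy (hconj g hgN x hx) hx1 hy1 hxy (hne1 x hx1) (claimA x hx hx1) with h | h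
  · exact isConj_iff.2 ⟨g, h⟩
  · rcases hthree y x _ hy hx (hconj g hgN y hy) hy1 hx1 (Ne.symm hxy) (hne1 y hy1) (claimA y hy hy1) with h' | h'
    · exact (isConj_iff.2 ⟨g, h'⟩).symm
    · exfalso
      rw [hcomm y x hy hx, ← h] at h'
      apply hxy
      have := mul_right_cancel h'
      exact (mul_left_cancel this).symm

theorem invol_conj {G : Type*} [Group G] [Finite G] [IsSimpleGroup G] (S : Sylow 2 G) (n : ℕ) (hn : 2 ≤ n)
    (hS : Nonempty ((S : Subgroup G) ≃* DihedralGroup n)) :
    ∀ x y : G, orderOf x = 2 → orderOf y = 2 → IsConj x y := by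
  have : Fact (Nat.Prime 2) := ⟨Nat.prime_two⟩
  obtain ⟨e⟩ := hS
  have hcardS : Nat.card S = 2 * n := by
    rw [Nat.card_congr e.toEquiv, DihedralGroup.nat_card]
  obtain ⟨k, hk⟩ := (IsPGroup.iff_card).1 S.2
  rw [hcardS] at hk
  obtain ⟨m, rfl⟩ : ∃ m, k = m + 1 := by
    rcases k with _ | k
    · rw [pow_zero] at hk; omega
    · exact ⟨k, rfl⟩
  have hnm : n = 2 ^ m := by
    rw [pow_succ] at hk; omega
  subst hnm
  intro x y hx hy
  by_cases hm : m = 1
  · subst hm
    obtain ⟨g, hg⟩ := exists_conj_mem S x hx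
    obtain ⟨h, hh⟩ := exists_conj_mem S y hy
    have hx1 : x ≠ 1 := by rintro rfl; simp at hx
    have hy1 : y ≠ 1 := by rintro rfl; simp at hy
    have c1 : IsConj x (g * x * g⁻¹) := isConj_iff.2 ⟨g, rfl⟩
    have c2 : IsConj y (h * y * h⁻¹) := isConj_iff.2 ⟨h, rfl⟩
    have hne : ∀ (g v : G), v ≠ 1 → g * v * g⁻¹ ≠ 1 := by
      intro g v hv1 h
      apply hv1
      have : v = g⁻¹ * (g * v * g⁻¹) * g := by group
      rw [this, h]; group
    exact c1.trans ((four_case S e _ _ hg hh (hne g x hx1) (hne h y hy1)).trans c2.symm)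
  · have hm2 : 2 ≤ m := by
      rcases m with _ | _ | m
      · simp at hn
      · exact absurd rfl hm
      · omega
    have hcard4 : 4 ≤ Nat.card G := by
      have h1 : Nat.card S ≤ Nat.card G := Nat.le_of_dvd Nat.card_pos (Subgroup.card_subgroup_dvd_card _)
      omega
    have hO : Cfsg.pResidual 2 G = ⊤ := by
      rcases (Cfsg.Agent.Lib.Helper2Residual.pResidual_normal (G := G) 2).eq_bot_or_eq_top with h | h
      · exfalso
        apply not_pgroup hcard4
        intro g
        obtain ⟨k, hk⟩ := Cfsg.Agent.Lib.Helper2Residual.exists_pow_mem_pResidual Nat.prime_two g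
        rw [h, Subgroup.mem_bot] at hk
        exact ⟨k, hk⟩
      · exact h
    obtain ⟨g, hg⟩ := Cfsg.Agent.S0107.result S m hm2 ⟨e⟩ hO x y hx hy
    exact isConj_iff.2 ⟨g, hg⟩

end Cfsg.Agent.Lib.H74BSWDihI
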