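import Cfsg.Agent.Lib.H74BSWDihZ
import Cfsg.Agent.Lib.H74BSWDihI
import Cfsg.Agent.Lib.H74BSWDihC
import Cfsg.Agent.Lib.H74BSWInv

/-! PROJECT 74 (BSW), part 2, piece `DihB`: the hypotheses of S0508 give `BSW t s K`.
`core` is the abstract version (with `K = O Z`), `exists_bsw` instantiates it. -/

set_option autoImplicit false

namespace Cfsg.Agent.Lib.H74BSWDihB

open Cfsg.Agent.Lib.Helper74BSWDefs

section core

variable {G : Type*} [Group G]

/-- the product `O Z` of two subgroups centralising each other -/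
def KK (O Z : Subgroup G) (h : ∀ z ∈ Z, ∀ y ∈ O, z * y = y * z) : Subgroup G where
  carrier := {x | ∃ y ∈ O, ∃ z ∈ Z, x = y * z}
  one_mem' := ⟨1, O.one_mem, 1, Z.one_mem, by simp⟩
  mul_mem' := by
    rintro _ _ ⟨y, hy, z, hz, rfl⟩ ⟨y', hy', z', hz', rfl⟩
    refine ⟨y * y', O.mul_mem hy hy', z * z', Z.mul_mem hz hz', ?_⟩
    calc y * z * (y' * z') = y * (z * y') * z' := by group
      _ = y * (y' * z) * z' := by rw [h z hz y' hy']
      _ = y * y' * (z * z') := by group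
  inv_mem' := by
    rintro _ ⟨y, hy, z, hz, rfl⟩
    refine ⟨y⁻¹, O.inv_mem hy, z⁻¹, Z.inv_mem hz, ?_⟩
    rw [mul_inv_rev, h _ (Z.inv_mem hz) _ (O.inv_mem hy)]

theorem mem_KK {O Z : Subgroup G} {h : ∀ z ∈ Z, ∀ y ∈ O, z * y = y * z} {x : G} :
    x ∈ KK O Z h ↔ ∃ y ∈ O, ∃ z ∈ Z, x = y * z := Iff.rfl

theorem mem_C' {g y : G} : y ∈ C g ↔ y * g = g * y := Subgroup.mem_centralizer_singleton_iff

theorem mem_cj' {x y : G} {A : Subgroup G} : y ∈ cj x A ↔ ∃ k ∈ A, y = x * k * x⁻¹ := by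
  constructor
  · rintro ⟨k, hk, rfl⟩
    exact ⟨k, hk, rfl⟩
  · rintro ⟨k, hk, rfl⟩
    exact ⟨k, hk, rfl⟩

theorem odd_pow_one (O : Subgroup G) (hO : Odd (Nat.card O)) {y : G} (hy : y ∈ O) (h : y * y = 1) :
    y = 1 := by
  have h1 : orderOf y ∣ 2 := orderOf_dvd_of_pow_eq_one (by rw [pow_two, h])
  have h2 : orderOf y ∣ Nat.card O := by
    have := orderOf_dvd_natCard (⟨y, hy⟩ : O)
    rwa [Subgroup.orderOf_mk] at this
  have h3 : Nat.Coprime 2 (Nat.card O) := (Nat.coprime_two_left).2 hO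
  have h4 : orderOf y ∣ 1 := by
    rw [← h3]
    exact Nat.dvd_gcd h1 h2
  exact orderOf_eq_one_iff.1 (Nat.dvd_one.1 h4)

theorem core [Finite G] (t s : G) (O Z S : Subgroup G)
    (ht : orderOf t = 2) (hs : orderOf s = 2)
    (hOC : O ≤ C t) (hSC : S ≤ C t) (hZS : Z ≤ S) (htZ : t ∈ Z) (hsS : s ∈ S) (hsZ : s ∉ Z)
    (hOS : ∀ x ∈ O, x ∈ S → x = 1)
    (hOodd : Odd (Nat.card O)) (hS2 : ∀ x ∈ S, ∃ k : ℕ, orderOf x = 2 ^ k)
    (hcomm : ∀ z ∈ Z, ∀ y ∈ O, z * y = y * z)
    (hsO : ∀ y ∈ O, s * y * s⁻¹ = y⁻¹) (hsZi : ∀ z ∈ Z, s * z * s⁻¹ = z⁻¹)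
    (hZinv : ∀ z ∈ Z, z * z = 1 → z = 1 ∨ z = t)
    (hSZ : ∀ σ ∈ S, σ ∈ Z ∨ σ * s⁻¹ ∈ Z)
    (hfac : ∀ g ∈ C t, ∃ y ∈ O, ∃ σ ∈ S, g = y * σ)
    (hc : ∀ Y : Subgroup G, Y ≤ O → Y ≠ ⊥ → Nm Y ≤ C t)
    (hconj : ∀ x y : G, orderOf x = 2 → orderOf y = 2 → IsConj x y) :
    BSW t s (KK O Z hcomm) := by
  have ht1 : t ≠ 1 := by
    intro h; rw [h, orderOf_one] at ht; omega
  have htt : t * t = 1 := by rw [← pow_two, ← ht, pow_orderOf_eq_one]
  have hinv : ∀ x ∈ KK O Z hcomm, s * x * s⁻¹ = x⁻¹ := by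
    rintro _ ⟨y, hy, z, hz, rfl⟩
    have e : s * (y * z) * s⁻¹ = (s * y * s⁻¹) * (s * z * s⁻¹) := by group
    rw [e, hsO y hy, hsZi z hz, ← mul_inv_rev, hcomm z hz y hy]
  have hab := H74BSWInv.comm_of_inverts (KK O Z hcomm) s hinv
  have hKH : KK O Z hcomm ≤ C t := by
    rintro _ ⟨y, hy, z, hz, rfl⟩
    exact (C t).mul_mem (hOC hy) (hSC (hZS hz))
  have htK : t ∈ KK O Z hcomm := ⟨1, O.one_mem, t, htZ, by simp⟩
  have hsq : ∀ x ∈ KK O Z hcomm, x * x = 1 → x = 1 ∨ x = t := by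
    rintro _ ⟨y, hy, z, hz, rfl⟩ h
    have e : y * z * (y * z) = (y * y) * (z * z) := by
      calc y * z * (y * z) = y * (z * y) * z := by group
        _ = y * (y * z) * z := by rw [hcomm z hz y hy]
        _ = _ := by group
    rw [e] at h
    have h1 : y * y = (z * z)⁻¹ := eq_inv_of_mul_eq_one_left h
    have h2 : y * y = 1 := hOS _ (O.mul_mem hy hy) (by
      rw [h1]; exact S.inv_mem (S.mul_mem (hZS hz) (hZS hz)))
    have h3 : y = 1 := odd_pow_one O hOodd hy h2
    rw [h2, one_mul] at h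
    rw [h3, one_mul]
    exact hZinv z hz h
  have hunion : ∀ g ∈ C t, g ∈ KK O Z hcomm ∨ ∃ k ∈ KK O Z hcomm, g = k * s := by
    intro g hg
    obtain ⟨y, hy, σ, hσ, rfl⟩ := hfac g hg
    rcases hSZ σ hσ with h | h
    · exact Or.inl ⟨y, hy, σ, h, rfl⟩
    · exact Or.inr ⟨y * (σ * s⁻¹), ⟨y, hy, _, h, rfl⟩, by group⟩
  have hsH : s ∈ C t := hSC hsS
  refine ⟨ht, hab, hKH, htK, hs, hsH, ?_, ?_, ?_, hinv, ?_, hconj⟩
  · -- s ∉ K
    rintro ⟨y, hy, z, hz, h⟩
    have h1 : y = s * z⁻¹ := by rw [h]; group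
    have h2 : y = 1 := hOS y hy (by rw [h1]; exact S.mul_mem hsS (S.inv_mem (hZS hz)))
    rw [h2, one_mul] at h
    exact hsZ (h ▸ hz)
  · -- K ⊔ ⟨s⟩ = C t
    apply le_antisymm
    · exact sup_le hKH ((Subgroup.zpowers_le).2 hsH)
    · intro g hg
      rcases hunion g hg with h | ⟨k, hk, rfl⟩
      · exact (le_sup_left : KK O Z hcomm ≤ _) h
      · exact Subgroup.mul_mem_sup hk (Subgroup.mem_zpowers s)
  · -- K ⊓ C s = ⟨t⟩
    apply le_antisymm
    · rintro x ⟨hxK, hxs⟩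
      have h1 : x * s = s * x := mem_C'.1 hxs
      have h2 : s * x * s⁻¹ = x := by rw [← h1]; group
      have h3 : x⁻¹ = x := (hinv x hxK).symm.trans h2
      have h4 : x * x = 1 := by
        nth_rewrite 1 [← h3]; group
      rcases hsq x hxK h4 with h | h
      · rw [h]; exact Subgroup.one_mem _
      · rw [h]; exact Subgroup.mem_zpowers t
    · rw [Subgroup.zpowers_le]
      exact ⟨htK, mem_C'.2 (mem_C'.1 hsH).symm⟩
  · -- TI
    intro g hg
    rw [eq_bot_iff]
    rintro x ⟨hxK, hxg⟩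
    rw [Subgroup.mem_bot]
    by_contra hx1
    obtain ⟨k, hkK, hxk⟩ := mem_cj'.1 hxg
    have hpow : ∀ m : ℕ, x ^ m = g * k ^ m * g⁻¹ := by
      intro m; rw [hxk, conj_pow]
    have hgt : g * t * g⁻¹ ≠ t := by
      intro h
      apply hg
      rw [mem_C']
      calc g * t = g * t * g⁻¹ * g := by group
        _ = t * g := by rw [h]
    rcases Nat.even_or_odd (orderOf x) with hev | hodd
    · obtain ⟨m, hm⟩ := hev
      have hpos : 0 < orderOf x := orderOf_pos x
      have hxm1 : x ^ m ≠ 1 := pow_ne_one_of_lt_orderOf (by omega) (by omega)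
      have hxm2 : x ^ m * x ^ m = 1 := by rw [← pow_add, ← hm, pow_orderOf_eq_one]
      have hxt : x ^ m = t := by
        rcases hsq _ ((KK O Z hcomm).pow_mem hxK m) hxm2 with h | h
        · exact absurd h hxm1
        · exact h
      have hkm1 : k ^ m ≠ 1 := by
        intro h; apply hxm1; rw [hpow, h]; group
      have hkm2 : k ^ m * k ^ m = 1 := by
        have : g * (k ^ m * k ^ m) * g⁻¹ = 1 := by
          rw [← hxm2, hpow]; group
        have h2 : k ^ m * k ^ m = g⁻¹ * (g * (k ^ m * k ^ m) * g⁻¹) * g := by group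
        rw [h2, this]; group
      have hkt : k ^ m = t := by
        rcases hsq _ ((KK O Z hcomm).pow_mem hkK m) hkm2 with h | h
        · exact absurd h hkm1
        · exact h
      apply hgt
      rw [← hkt, ← hpow, hxt, hkt]
    · -- odd order: x ∈ O
      have hxO : x ∈ O := by
        obtain ⟨y, hy, z, hz, rfl⟩ := hxK
        have hcz : Commute y z := (hcomm z hz y hy).symm
        have h1 : y ^ orderOf (y * z) * z ^ orderOf (y * z) = 1 := by
          rw [← hcz.mul_pow, pow_orderOf_eq_one]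
        have h2 : z ^ orderOf (y * z) = (y ^ orderOf (y * z))⁻¹ := eq_inv_of_mul_eq_one_right h1
        have h3 : z ^ orderOf (y * z) = 1 := by
          apply hOS
          · rw [h2]; exact O.inv_mem (O.pow_mem hy _)
          · exact S.pow_mem (hZS hz) _
        obtain ⟨j, hj⟩ := hS2 z (hZS hz)
        have h4 : orderOf z ∣ orderOf (y * z) := orderOf_dvd_of_pow_eq_one h3
        have h5 : z = 1 := by
          rcases Nat.eq_zero_or_pos j with h0 | h0
          · rw [h0, pow_zero] at hj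
            exact orderOf_eq_one_iff.1 hj
          · exfalso
            have : 2 ∣ orderOf (y * z) := by
              refine dvd_trans ?_ h4
              rw [hj]; exact dvd_pow_self 2 (by omega)
            exact (Nat.not_even_iff_odd.2 hodd) (even_iff_two_dvd.2 this)
        rw [h5, mul_one]; exact hy
      have hY : Nm (Subgroup.zpowers x) ≤ C t := by
        apply hc
        · rw [Subgroup.zpowers_le]; exact hxO
        · intro h
          apply hx1
          have : x ∈ Subgroup.zpowers x := Subgroup.mem_zpowers x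
          rwa [h, Subgroup.mem_bot] at this
      have hkt : k * t = t * k := mem_C'.1 (hKH hkK)
      have hcx : (g * t * g⁻¹) * x = x * (g * t * g⁻¹) := by
        rw [hxk]
        calc g * t * g⁻¹ * (g * k * g⁻¹) = g * (t * k) * g⁻¹ := by group
          _ = g * (k * t) * g⁻¹ := by rw [hkt]
          _ = _ := by group
      have ht'N : g * t * g⁻¹ ∈ Nm (Subgroup.zpowers x) := by
        apply Subgroup.centralizer_le_normalizer
        rw [Subgroup.mem_centralizer_iff]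
        rintro _ ⟨i, rfl⟩
        have : Commute x (g * t * g⁻¹) := hcx.symm
        exact (this.zpow_left i).eq
      have ht'sq : (g * t * g⁻¹) * (g * t * g⁻¹) = 1 := by
        calc (g * t * g⁻¹) * (g * t * g⁻¹) = g * (t * t) * g⁻¹ := by group
          _ = 1 := by rw [htt]; group
      have ht'1 : g * t * g⁻¹ ≠ 1 := by
        intro h
        apply ht1
        calc t = g⁻¹ * (g * t * g⁻¹) * g := by group
          _ = 1 := by rw [h]; group
      rcases hunion _ (hY ht'N) with h | ⟨k', hk', h⟩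
      · rcases hsq _ h ht'sq with h' | h'
        · exact ht'1 h'
        · exact hgt h'
      · have hxK' : x ∈ KK O Z hcomm := ⟨x, hxO, 1, Z.one_mem, by simp⟩
        have e1 : (g * t * g⁻¹) * x * (g * t * g⁻¹)⁻¹ = x := by
          rw [hcx]; group
        have e2 : (g * t * g⁻¹) * x * (g * t * g⁻¹)⁻¹ = x⁻¹ := by
          rw [h]
          calc k' * s * x * (k' * s)⁻¹ = k' * (s * x * s⁻¹) * k'⁻¹ := by group
            _ = k' * x⁻¹ * k'⁻¹ := by rw [hinv x hxK']
            _ = x⁻¹ * k' * k'⁻¹ := by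
                rw [hab k' hk' x⁻¹ ((KK O Z hcomm).inv_mem hxK')]
            _ = x⁻¹ := by group
        have e3 : x * x = 1 := by
          have : x = x⁻¹ := e1.symm.trans e2
          nth_rewrite 1 [this]; group
        exact hx1 (odd_pow_one O hOodd hxO e3)

end core

/-- in a finite cyclic group there is at most one involution -/
theorem cyc_invol {Z : Type*} [Group Z] [Finite Z] [IsCyclic Z] (t z : Z) (ht : orderOf t = 2)
    (hz : z * z = 1) : z = 1 ∨ z = t := by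
  classical
  have : Fintype Z := Fintype.ofFinite Z
  by_contra hcon
  push Not at hcon
  have ht1 : t ≠ 1 := by
    intro h; rw [h, orderOf_one] at ht; omega
  have htt : t ^ 2 = 1 := by rw [← ht, pow_orderOf_eq_one]
  have h := IsCyclic.card_pow_eq_one_le (α := Z) (n := 2) (by norm_num)
  have hsub : ({1, t, z} : Finset Z) ⊆ Finset.univ.filter (fun a : Z => a ^ 2 = 1) := by
    intro a ha
    simp only [Finset.mem_insert, Finset.mem_singleton] at ha
    rw [Finset.mem_filter]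
    refine ⟨Finset.mem_univ _, ?_⟩
    rcases ha with rfl | rfl | rfl
    · simp
    · exact htt
    · rw [pow_two, hz]
  have h3 : ({1, t, z} : Finset Z).card = 3 := by
    rw [Finset.card_insert_of_notMem, Finset.card_insert_of_notMem, Finset.card_singleton]
    · simp only [Finset.mem_singleton]; exact fun h => hcon.2 h.symm
    · simp only [Finset.mem_insert, Finset.mem_singleton]
      rintro (h | h)
      · exact ht1 h.symm
      · exact hcon.1 h.symm
  have := Finset.card_le_card hsub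
  omega

theorem exists_bsw {G : Type*} [Group G] [Finite G] [IsSimpleGroup G] (S : Sylow 2 G) (n : ℕ)
    (hn : 2 ≤ n) (hS : Nonempty ((S : Subgroup G) ≃* DihedralGroup n)) (t : G) (ht : orderOf t = 2)
    (htS : t ∈ (S : Subgroup G))
    (htZ : ∀ s ∈ (S : Subgroup G), s * t = t * s) (O : Subgroup G)
    (hO : O = (Cfsg.oddCore (Subgroup.centralizer ({t} : Set G))).map (Subgroup.centralizer ({t} : Set G)).subtype)
    (ha : O ≠ ⊥ → IsCyclic ((S : Subgroup G) ⊓ Subgroup.centralizer (O : Set G) : Subgroup G) ∧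
      ((S : Subgroup G) ⊓ Subgroup.centralizer (O : Set G)).relIndex (S : Subgroup G) = 2)
    (hb : ∀ s ∈ (S : Subgroup G), s ∉ Subgroup.centralizer (O : Set G) → ∀ y ∈ O, s * y * s⁻¹ = y⁻¹)
    (hc : ∀ Y : Subgroup G, Y ≤ O → Y ≠ ⊥ → Subgroup.normalizer (Y : Set G) ≤ Subgroup.centralizer ({t} : Set G)) :
    ∃ (s : G) (K : Subgroup G), BSW t s K := by
  obtain ⟨hOC, hSC, -, hOodd, hfac⟩ := H74BSWDihC.cent_struct S n hn hS t ht htS htZ O hO
  have hconj := H74BSWDihI.invol_conj S n hn hS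
  obtain ⟨e⟩ := hS
  have : Fact (Nat.Prime 2) := ⟨Nat.prime_two⟩
  have hS2 : ∀ x ∈ (S : Subgroup G), ∃ k : ℕ, orderOf x = 2 ^ k := by
    intro x hx
    obtain ⟨k, hk⟩ := (IsPGroup.iff_orderOf.1 S.isPGroup') ⟨x, hx⟩
    exact ⟨k, by rwa [Subgroup.orderOf_mk] at hk⟩
  have hOS : ∀ x ∈ O, x ∈ (S : Subgroup G) → x = 1 := by
    intro x hxO hxS
    obtain ⟨k, hk⟩ := hS2 x hxS
    have h2 : orderOf x ∣ Nat.card O := by
      have := orderOf_dvd_natCard (⟨x, hxO⟩ : O)
      rwa [Subgroup.orderOf_mk] at this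
    rcases Nat.eq_zero_or_pos k with h0 | h0
    · rw [h0, pow_zero] at hk
      exact orderOf_eq_one_iff.1 hk
    · exfalso
      have : 2 ∣ Nat.card O := by
        refine dvd_trans ?_ h2
        rw [hk]; exact dvd_pow_self 2 (by omega)
      exact (Nat.not_even_iff_odd.2 hOodd) (even_iff_two_dvd.2 this)
  -- the cyclic subgroup of index 2
  have hZ' : ∃ Z' : Subgroup (S : Subgroup G), IsCyclic Z' ∧ Z'.index = 2 ∧
      (⟨t, htS⟩ : (S : Subgroup G)) ∈ Z' ∧ (∀ z ∈ Z', ∀ y ∈ O, (z : G) * y = y * z) ∧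
      (O ≠ ⊥ → ∀ σ : (S : Subgroup G), σ ∉ Z' → (σ : G) ∉ Subgroup.centralizer (O : Set G)) := by
    by_cases hO1 : O = ⊥
    · obtain ⟨Z', h1, h2, h3⟩ := H74BSWDihZ.dih_exists n hn e ⟨t, htS⟩
        (by rw [Subgroup.orderOf_mk]; exact ht)
        (fun σ => Subtype.ext (htZ σ σ.2))
      refine ⟨Z', h1, h2, h3, ?_, fun h => absurd hO1 h⟩
      intro z _ y hy
      rw [hO1, Subgroup.mem_bot] at hy
      rw [hy]; simp
    · obtain ⟨h1, h2⟩ := ha hO1
      refine ⟨((S : Subgroup G) ⊓ Subgroup.centralizer (O : Set G)).subgroupOf S, ?_, h2, ?_, ?_, ?_⟩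
      · exact isCyclic_of_surjective (Subgroup.subgroupOfEquivOfLe inf_le_left).symm
          (MulEquiv.surjective _)
      · rw [Subgroup.mem_subgroupOf]
        refine Subgroup.mem_inf.2 ⟨htS, ?_⟩
        rw [Subgroup.mem_centralizer_iff]
        intro y hy
        exact mem_C'.1 (hOC hy)
      · intro z hz y hy
        rw [Subgroup.mem_subgroupOf] at hz
        exact ((Subgroup.mem_centralizer_iff.1 (Subgroup.mem_inf.1 hz).2) y hy).symm
      · intro _ σ hσ hσC
        apply hσ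
        rw [Subgroup.mem_subgroupOf]
        exact Subgroup.mem_inf.2 ⟨σ.2, hσC⟩
  obtain ⟨Z', hcyc, hidx, htZ', hcomm', hout⟩ := hZ'
  have hex : ∃ s' : (S : Subgroup G), s' ∉ Z' := by
    by_contra hcon
    push Not at hcon
    have : Z' = ⊤ := (Subgroup.eq_top_iff' Z').2 hcon
    rw [this, Subgroup.index_top] at hidx
    omega
  obtain ⟨s', hs'⟩ := hex
  obtain ⟨hs2, hsinv⟩ := H74BSWDihZ.dih_out n hn e Z' hcyc hidx s' hs'
  have hmemZ : ∀ x : G, x ∈ Z'.map (S : Subgroup G).subtype ↔ ∃ h : x ∈ (S : Subgroup G), (⟨x, h⟩ : (S : Subgroup G)) ∈ Z' := by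
    intro x
    constructor
    · rintro ⟨z, hz, rfl⟩
      exact ⟨z.2, hz⟩
    · rintro ⟨h, hz⟩
      exact ⟨⟨x, h⟩, hz, rfl⟩
  have hcomm : ∀ z ∈ Z'.map (S : Subgroup G).subtype, ∀ y ∈ O, z * y = y * z := by
    rintro _ ⟨z, hz, rfl⟩ y hy
    exact hcomm' z hz y hy
  refine ⟨(s' : G), KK O (Z'.map (S : Subgroup G).subtype) hcomm, ?_⟩
  apply core t (s' : G) O (Z'.map (S : Subgroup G).subtype) (S : Subgroup G) ht
    (by rw [Subgroup.orderOf_coe]; exact hs2) hOC hSC
  · rintro _ ⟨z, -, rfl⟩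
    exact z.2
  · exact (hmemZ t).2 ⟨htS, htZ'⟩
  · exact s'.2
  · intro h
    obtain ⟨_, h'⟩ := (hmemZ _).1 h
    exact hs' h'
  · exact hOS
  · exact hOodd
  · exact hS2
  · -- s inverts O
    by_cases hO1 : O = ⊥
    · intro y hy
      rw [hO1, Subgroup.mem_bot] at hy
      rw [hy]; simp
    · exact hb _ s'.2 (hout hO1 s' hs')
  · rintro _ ⟨z, hz, rfl⟩
    exact congrArg Subtype.val (hsinv z hz)
  · rintro _ ⟨z, hz, rfl⟩ h
    have := hcyc
    have h1 := cyc_invol (Z := Z') ⟨⟨t, htS⟩, htZ'⟩ ⟨z, hz⟩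
      (by rw [Subgroup.orderOf_mk, Subgroup.orderOf_mk]; exact ht)
      (Subtype.ext (Subtype.ext h))
    rcases h1 with h1 | h1
    · left
      exact congrArg (fun w : Z' => ((w : (S : Subgroup G)) : G)) h1
    · right
      exact congrArg (fun w : Z' => ((w : (S : Subgroup G)) : G)) h1
  · intro σ hσ
    by_cases h : (⟨σ, hσ⟩ : (S : Subgroup G)) ∈ Z'
    · exact Or.inl ((hmemZ σ).2 ⟨hσ, h⟩)
    · right
      have h1 : (⟨σ, hσ⟩ : (S : Subgroup G)) * s'⁻¹ ∈ Z' := by
        rw [Subgroup.mul_mem_iff_of_index_two hidx, Subgroup.inv_mem_iff]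
        exact ⟨fun h' => absurd h' h, fun h' => absurd h' hs'⟩
      exact ⟨_, h1, rfl⟩
  · exact hfac
  · exact hc
  · exact hconj

end Cfsg.Agent.Lib.H74BSWDihB
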