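import Mathlib

/-! PROJECT 74 (BSW), part 2, piece `DihZ` (1.5 h, PURE: dihedral groups).
Transport along `e` to `DihedralGroup n` (elements `r i`, `sr i`).  `dih_out`: if `n > 2`, a generator of a cyclic subgroup of order `n` has order `n > 2`, so it is some `r i` (the `sr i` have order 2); so `Z ≤ {r i}`, and `Z = {r i}` by cardinality; the elements outside are the `sr i`: involutions with `sr i * r j * (sr i)⁻¹ = r (-j)`.
If `n = 2` the group has exponent 2 and is abelian.
`dih_exists`: `n > 2`: `Z` = the rotations; a central involution is not an `sr i` (`sr i * r 1 ≠ r 1 * sr i` as `2 ≠ 0` in `ZMod n`).  `n = 2`: `Z = zpowers t`, of index `4 / 2`. -/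

set_option autoImplicit false

namespace Cfsg.Agent.Lib.H74BSWDihZ

open DihedralGroup

theorem mem_rot {n : ℕ} (x : DihedralGroup n) :
    x ∈ Subgroup.zpowers (r 1 : DihedralGroup n) ↔ ∃ i, x = r i := by
  constructor
  · rintro ⟨k, rfl⟩
    exact ⟨k, r_one_zpow k⟩
  · rintro ⟨i, rfl⟩
    obtain ⟨k, rfl⟩ := ZMod.intCast_surjective i
    exact ⟨k, r_one_zpow k⟩

theorem rot_index {n : ℕ} (hn : 0 < n) : (Subgroup.zpowers (r 1 : DihedralGroup n)).index = 2 := by
  have h := Subgroup.card_mul_index (Subgroup.zpowers (r 1 : DihedralGroup n))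
  rw [Nat.card_zpowers, orderOf_r_one, nat_card, mul_comm] at h
  exact Nat.eq_of_mul_eq_mul_right hn h

theorem dih_out_D (n : ℕ) (hn : 2 ≤ n) (Z : Subgroup (DihedralGroup n))
    (hZ : IsCyclic Z) (hi : Z.index = 2) :
    ∀ s : DihedralGroup n, s ∉ Z → orderOf s = 2 ∧ ∀ z ∈ Z, s * z * s⁻¹ = z⁻¹ := by
  haveI : NeZero n := ⟨by omega⟩
  rcases Nat.eq_or_lt_of_le hn with rfl | hn2
  · intro s hs
    have hs1 : s ≠ 1 := by
      rintro rfl
      exact hs (one_mem Z)
    have h1 : ∀ s : DihedralGroup 2, s ^ 2 = 1 := by decide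
    have h2 : ∀ s z : DihedralGroup 2, s * z * s⁻¹ = z⁻¹ := by decide
    exact ⟨orderOf_eq_prime (h1 s) hs1, fun z _ => h2 s z⟩
  · have hcard : Nat.card Z = n := by
      have h := Subgroup.card_mul_index Z
      rw [hi, nat_card, mul_comm] at h
      exact Nat.eq_of_mul_eq_mul_left (by norm_num) h
    obtain ⟨g, hg⟩ := IsCyclic.exists_generator (α := Z)
    have hgo : orderOf (g : DihedralGroup n) = n := by
      rw [Subgroup.orderOf_coe, orderOf_eq_card_of_forall_mem_zpowers hg, hcard]
    have hgr : (g : DihedralGroup n) ∈ Subgroup.zpowers (r 1 : DihedralGroup n) := by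
      rw [mem_rot]
      rcases hgv : (g : DihedralGroup n) with i | i
      · exact ⟨i, rfl⟩
      · rw [hgv, orderOf_sr] at hgo
        omega
    have hle : Z ≤ Subgroup.zpowers (r 1 : DihedralGroup n) := by
      intro z hz
      obtain ⟨k, hk⟩ := hg ⟨z, hz⟩
      have : z = (g : DihedralGroup n) ^ k := by
        simpa using (congrArg Subtype.val hk).symm
      rw [this]
      exact Subgroup.zpow_mem _ hgr k
    have heq : Z = Subgroup.zpowers (r 1 : DihedralGroup n) := by
      apply Subgroup.eq_of_le_of_card_ge hle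
      rw [hcard, Nat.card_zpowers, orderOf_r_one]
    intro s hs
    rw [heq, mem_rot] at hs
    rcases s with i | i
    · exact absurd ⟨i, rfl⟩ hs
    · refine ⟨orderOf_sr i, ?_⟩
      intro z hz
      rw [heq, mem_rot] at hz
      obtain ⟨j, rfl⟩ := hz
      simp

theorem dih_out {S : Type*} [Group S] (n : ℕ) (hn : 2 ≤ n) (e : S ≃* DihedralGroup n) (Z : Subgroup S)
    (hZ : IsCyclic Z) (hi : Z.index = 2) : ∀ s : S, s ∉ Z → orderOf s = 2 ∧ ∀ z ∈ Z, s * z * s⁻¹ = z⁻¹ := by
  have hZ' : IsCyclic (Z.map (e : S →* DihedralGroup n)) :=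
    isCyclic_of_surjective _ (Subgroup.equivMapOfInjective Z (e : S →* DihedralGroup n) e.injective).surjective
  have hi' : (Z.map (e : S →* DihedralGroup n)).index = 2 := by
    rw [Subgroup.index_map_equiv, hi]
  intro s hs
  have hs' : e s ∉ Z.map (e : S →* DihedralGroup n) := by
    rintro ⟨s', hs', h⟩
    have : s' = s := e.injective h
    exact hs (this ▸ hs')
  obtain ⟨h1, h2⟩ := dih_out_D n hn _ hZ' hi' (e s) hs'
  refine ⟨by rw [← h1, MulEquiv.orderOf_eq], fun z hz => ?_⟩
  have := h2 (e z) ⟨z, hz, rfl⟩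
  apply e.injective
  simpa using this

theorem dih_exists {S : Type*} [Group S] (n : ℕ) (hn : 2 ≤ n) (e : S ≃* DihedralGroup n) (t : S)
    (ht : orderOf t = 2) (htZ : ∀ s : S, s * t = t * s) :
    ∃ Z : Subgroup S, IsCyclic Z ∧ Z.index = 2 ∧ t ∈ Z := by
  rcases Nat.eq_or_lt_of_le hn with rfl | hn2
  · refine ⟨Subgroup.zpowers t, inferInstance, ?_, Subgroup.mem_zpowers t⟩
    have h := Subgroup.card_mul_index (Subgroup.zpowers t)
    rw [Nat.card_zpowers, ht, Nat.card_congr e.toEquiv, nat_card] at h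
    omega
  · refine ⟨(Subgroup.zpowers (r 1 : DihedralGroup n)).map (e.symm : DihedralGroup n →* S), ?_, ?_, ?_⟩
    · exact isCyclic_of_surjective _ (Subgroup.equivMapOfInjective _
        (e.symm : DihedralGroup n →* S) e.symm.injective).surjective
    · rw [Subgroup.index_map_equiv, rot_index (by omega)]
    · refine ⟨e t, ?_, by simp⟩
      rw [SetLike.mem_coe, mem_rot]
      rcases hv : e t with i | i
      · exact ⟨i, rfl⟩
      · exfalso
        have h1 := htZ (e.symm (r 1))
        have h2 := congrArg e h1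
        rw [map_mul, map_mul, hv] at h2
        simp only [MulEquiv.apply_symm_apply, r_mul_sr, sr_mul_r] at h2
        have h3 : i - 1 = i + 1 := by
          simpa using h2
        have h4 : ((2 : ℕ) : ZMod n) = 0 := by
          have : (2 : ZMod n) = (i + 1) - (i - 1) := by ring
          push_cast
          rw [this, h3]; ring
        rw [ZMod.natCast_eq_zero_iff] at h4
        have := Nat.le_of_dvd (by norm_num) h4
        omega

end Cfsg.Agent.Lib.H74BSWDihZ
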