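import Cfsg.Agent.Lib.Helper74BSWDefs

/-! PROJECT 74 (BSW), part 2, piece `ZassA`: the action of `G` on `Ω = G ⧸ N(Q)`. -/

set_option autoImplicit false

namespace Cfsg.Agent.Lib.H74BSWZassA

open Cfsg.Agent.Lib.Helper74BSWDefs
open scoped Pointwise

variable {G : Type*} [Group G] [Finite G] (Q D : Subgroup G)

theorem card_NQ (hD : 2 * Nat.card D + 1 = Nat.card Q) (hQD : Q ⊓ D = ⊥) (hN : Nm Q = Q ⊔ D) :
    Nat.card (Nm Q) = Nat.card Q * Nat.card D := by
  have hDN : D ≤ Nm Q := hN ▸ le_sup_right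
  have hset : ((Q ⊔ D : Subgroup G) : Set G) = (Q : Set G) * (D : Set G) :=
    Subgroup.coe_mul_of_right_le_normalizer_left Q D hDN
  let f : Q × D → (Q ⊔ D : Subgroup G) := fun p =>
    ⟨(p.1 : G) * (p.2 : G), mul_mem ((le_sup_left : Q ≤ Q ⊔ D) p.1.2) ((le_sup_right : D ≤ Q ⊔ D) p.2.2)⟩
  have hf : Function.Bijective f := by
    constructor
    · rintro ⟨a, b⟩ ⟨a', b'⟩ h
      have h1 : (a : G) * (b : G) = (a' : G) * (b' : G) := congrArg Subtype.val h
      have h2 : (a' : G)⁻¹ * (a : G) = (b' : G) * (b : G)⁻¹ := by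
        rw [inv_mul_eq_iff_eq_mul, ← mul_assoc, ← h1, mul_assoc, mul_inv_cancel, mul_one]
      have h3 : (a' : G)⁻¹ * (a : G) ∈ Q ⊓ D :=
        Subgroup.mem_inf.2 ⟨Q.mul_mem (Q.inv_mem a'.2) a.2, h2 ▸ D.mul_mem b'.2 (D.inv_mem b.2)⟩
      rw [hQD, Subgroup.mem_bot] at h3
      have h4 : (a : G) = a' := (inv_mul_eq_one.1 h3).symm
      have h5 : (b : G) = b' := by
        rw [h3] at h2
        exact (mul_inv_eq_one.1 h2.symm).symm
      exact Prod.ext (Subtype.ext h4) (Subtype.ext h5)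
    · rintro ⟨x, hx⟩
      have hx' : x ∈ ((Q ⊔ D : Subgroup G) : Set G) := hx
      rw [hset] at hx'
      obtain ⟨a, ha, b, hb, rfl⟩ := hx'
      exact ⟨(⟨a, ha⟩, ⟨b, hb⟩), rfl⟩
  rw [hN, ← Nat.card_prod]
  exact (Nat.card_congr (Equiv.ofBijective f hf)).symm

theorem card_Omega (hG : 2 * Nat.card G = Nat.card Q * (Nat.card Q + 1) * (Nat.card Q - 1))
    (hD : 2 * Nat.card D + 1 = Nat.card Q) (hQD : Q ⊓ D = ⊥) (hN : Nm Q = Q ⊔ D) :
    Nat.card (G ⧸ Nm Q) = Nat.card Q + 1 := by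
  have h1 := card_NQ Q D hD hQD hN
  have h2 := Subgroup.card_eq_card_quotient_mul_card_subgroup (Nm Q)
  have hd : 0 < Nat.card D := Nat.card_pos
  have hq : 0 < Nat.card Q := Nat.card_pos
  rw [h1] at h2
  rw [h2] at hG
  have h3 : Nat.card Q - 1 = 2 * Nat.card D := by omega
  rw [h3] at hG
  have h4 : Nat.card (G ⧸ Nm Q) * (2 * (Nat.card Q * Nat.card D))
      = (Nat.card Q + 1) * (2 * (Nat.card Q * Nat.card D)) := by
    linarith
  exact Nat.eq_of_mul_eq_mul_right (by positivity) h4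

/-- elements of `N(Q)` of order dividing `|Q|` lie in `Q` -/
theorem mem_Q_of_pow (hD : 2 * Nat.card D + 1 = Nat.card Q) (hQD : Q ⊓ D = ⊥) (hN : Nm Q = Q ⊔ D)
    (v : G) (hv : v ∈ Nm Q) (hvq : v ^ Nat.card Q = 1) : v ∈ Q := by
  have hcard := card_NQ Q D hD hQD hN
  have : (Q.subgroupOf (Nm Q)).Normal := Subgroup.normal_in_normalizer
  have hidx : (Q.subgroupOf (Nm Q)).index = Nat.card D := by
    have h1 := Subgroup.card_mul_index (Q.subgroupOf (Nm Q))
    have h2 : Nat.card (Q.subgroupOf (Nm Q)) = Nat.card Q :=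
      Nat.card_congr (Subgroup.subgroupOfEquivOfLe Subgroup.le_normalizer).toEquiv
    rw [h2, hcard] at h1
    exact Nat.eq_of_mul_eq_mul_left Nat.card_pos h1
  have h1 : (⟨v, hv⟩ : Nm Q) ^ Nat.card D ∈ Q.subgroupOf (Nm Q) := by
    rw [← hidx]
    exact Subgroup.pow_index_mem _ _
  have h2 : v ^ Nat.card D ∈ Q := by
    simpa [Subgroup.mem_subgroupOf] using h1
  have hcop : (Nat.card D).Coprime (orderOf v) := by
    have h3 : orderOf v ∣ Nat.card Q := orderOf_dvd_of_pow_eq_one hvq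
    refine Nat.Coprime.coprime_dvd_right h3 ?_
    rw [← hD]
    simp
  obtain ⟨m, hm⟩ := exists_pow_eq_self_of_coprime hcop
  rw [← hm]
  exact pow_mem h2 m

theorem semireg (hC : ∀ x ∈ Q, x ≠ 1 → C x = Q)
    (hD : 2 * Nat.card D + 1 = Nat.card Q) (hQD : Q ⊓ D = ⊥) (hN : Nm Q = Q ⊔ D)
    (u : G) (hu : u ∈ Q) (g : G) (hg : g ∉ Nm Q) (hv : g⁻¹ * u * g ∈ Nm Q) : u = 1 := by
  by_contra hu1
  apply hg
  have hvq : (g⁻¹ * u * g) ^ Nat.card Q = 1 := by
    have h1 : (g⁻¹ * u * g) ^ Nat.card Q = g⁻¹ * u ^ Nat.card Q * g := by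
      have := conj_pow (a := g⁻¹) (b := u) (i := Nat.card Q)
      simpa using this
    have h2 : u ^ Nat.card Q = 1 := by
      have h3 := pow_card_eq_one' (x := (⟨u, hu⟩ : Q))
      have h4 := congrArg Subtype.val h3
      rwa [Subgroup.coe_pow, Subgroup.coe_one] at h4
    rw [h1, h2]
    group
  have hvQ := mem_Q_of_pow Q D hD hQD hN _ hv hvq
  have hv1 : g⁻¹ * u * g ≠ 1 := by
    intro h
    apply hu1
    have : u = g * (g⁻¹ * u * g) * g⁻¹ := by group
    rw [this, h]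
    group
  have hCv := hC _ hvQ hv1
  have hCu := hC _ hu hu1
  rw [Subgroup.mem_normalizer_iff]
  intro x
  have e1 : x ∈ Q ↔ x * (g⁻¹ * u * g) = (g⁻¹ * u * g) * x := by
    rw [← hCv, Subgroup.mem_centralizer_iff]
    constructor
    · intro h
      exact (h _ rfl).symm
    · intro h y hy
      rw [Set.mem_singleton_iff.1 hy]
      exact h.symm
  have e2 : g * x * g⁻¹ ∈ Q ↔ (g * x * g⁻¹) * u = u * (g * x * g⁻¹) := by
    rw [← hCu, Subgroup.mem_centralizer_iff]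
    constructor
    · intro h
      exact (h _ rfl).symm
    · intro h y hy
      rw [Set.mem_singleton_iff.1 hy]
      exact h.symm
  show x ∈ Q ↔ g * x * g⁻¹ ∈ Q
  rw [e1, e2]
  constructor
  · intro h
    have : g * x * g⁻¹ * u = g * (x * (g⁻¹ * u * g)) * g⁻¹ := by group
    rw [this, h]
    group
  · intro h
    have : x * (g⁻¹ * u * g) = g⁻¹ * (g * x * g⁻¹ * u) * g := by group
    rw [this, h]
    group

theorem reg (hG : 2 * Nat.card G = Nat.card Q * (Nat.card Q + 1) * (Nat.card Q - 1))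
    (hC : ∀ x ∈ Q, x ≠ 1 → C x = Q)
    (hD : 2 * Nat.card D + 1 = Nat.card Q) (hQD : Q ⊓ D = ⊥) (hN : Nm Q = Q ⊔ D) :
    ∀ y z : G ⧸ Nm Q, y ≠ ((1 : G) : G ⧸ Nm Q) → z ≠ ((1 : G) : G ⧸ Nm Q) → ∃! u : Q, (u : G) • y = z := by
  classical
  intro y z hy hz
  have hQN : Q ≤ Nm Q := Subgroup.le_normalizer
  have hfix : ∀ u ∈ Q, u • ((1 : G) : G ⧸ Nm Q) = ((1 : G) : G ⧸ Nm Q) := by
    intro u hu
    rw [MulAction.Quotient.smul_coe, QuotientGroup.eq]
    simpa using inv_mem (hQN hu)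
  have hwd : ∀ u : Q, (u : G) • y ≠ ((1 : G) : G ⧸ Nm Q) := by
    intro u h
    apply hy
    rw [← inv_smul_smul (u : G) y, h]
    exact hfix _ (inv_mem u.2)
  let f : Q → {w : G ⧸ Nm Q // w ≠ ((1 : G) : G ⧸ Nm Q)} := fun u => ⟨(u : G) • y, hwd u⟩
  have hinj : Function.Injective f := by
    intro a b hab
    have h1 : (a : G) • y = (b : G) • y := congrArg Subtype.val hab
    obtain ⟨g, rfl⟩ := QuotientGroup.mk_surjective y
    have hg : g ∉ Nm Q := by
      intro hg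
      apply hy
      rw [QuotientGroup.eq]
      simpa using hg
    have h2 : ((b : G)⁻¹ * (a : G)) • ((g : G) : G ⧸ Nm Q) = ((g : G) : G ⧸ Nm Q) := by
      rw [mul_smul, h1, inv_smul_smul]
    rw [MulAction.Quotient.smul_coe, QuotientGroup.eq] at h2
    have h3 : g⁻¹ * ((b : G)⁻¹ * (a : G))⁻¹ * g ∈ Nm Q := by
      simpa [mul_assoc] using h2
    have h4 := semireg Q D hC hD hQD hN _ (inv_mem (mul_mem (inv_mem b.2) a.2)) g hg h3
    apply Subtype.ext
    rw [inv_eq_one, inv_mul_eq_one] at h4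
    exact h4.symm
  have hcard : Nat.card {w : G ⧸ Nm Q // w ≠ ((1 : G) : G ⧸ Nm Q)} ≤ Nat.card Q := by
    have h1 := card_Omega Q D hG hD hQD hN
    have h2 : Nat.card {w : G ⧸ Nm Q // w ≠ ((1 : G) : G ⧸ Nm Q)} = Nat.card (G ⧸ Nm Q) - 1 := by
      let _ : Fintype (G ⧸ Nm Q) := Fintype.ofFinite _
      rw [Nat.card_eq_fintype_card, Nat.card_eq_fintype_card, Fintype.card_subtype_compl,
        Fintype.card_subtype_eq]
    omega
  have hbij := Function.Injective.bijective_of_nat_card_le hinj hcard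
  obtain ⟨u, hu⟩ := hbij.2 ⟨z, hz⟩
  refine ⟨u, congrArg Subtype.val hu, ?_⟩
  intro u' hu'
  apply hinj
  rw [hu]
  exact Subtype.ext hu'

end Cfsg.Agent.Lib.H74BSWZassA
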