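import Cfsg.Agent.Lib.H74BSWZassA
import Cfsg.Prelude.Def_LieExceptional
import Cfsg.Agent.Lib.H69G4Ord

/-! PROJECT 74 (BSW), part 2, piece `ZassB`: `G` simple non-abelian with `Concl`-data is a Zassenhaus group on `Ω = G ⧸ N(Q)`. -/

set_option autoImplicit false

namespace Cfsg.Agent.Lib.H74BSWZassB

open Cfsg.Agent.Lib.Helper74BSWDefs

variable {G : Type*} [Group G] [Finite G] (Q D : Subgroup G)

theorem fix0 (H : Subgroup G) (g : G) : g • ((1 : G) : G ⧸ H) = ((1 : G) : G ⧸ H) ↔ g ∈ H := by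
  have : g • ((1 : G) : G ⧸ H) = ((g * 1 : G) : G ⧸ H) := rfl
  rw [this, mul_one, eq_comm, QuotientGroup.eq, inv_one, one_mul]

theorem zass [IsSimpleGroup G] (hna : ∃ a b : G, a * b ≠ b * a)
    (hG : 2 * Nat.card G = Nat.card Q * (Nat.card Q + 1) * (Nat.card Q - 1))
    (hC : ∀ x ∈ Q, x ≠ 1 → C x = Q)
    (hD : 2 * Nat.card D + 1 = Nat.card Q) (hQD : Q ⊓ D = ⊥) (hN : Nm Q = Q ⊔ D) :
    Cfsg.IsZassenhausGroup G (G ⧸ Nm Q) := by
  have hreg := H74BSWZassA.reg Q D hG hC hD hQD hN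
  have hcardΩ := H74BSWZassA.card_Omega Q D hG hD hQD hN
  have hdpos : 0 < Nat.card D := Nat.card_pos
  have hq3 : 3 ≤ Nat.card Q := by omega
  have hQN : Q ≤ Nm Q := Subgroup.le_normalizer
  have hDN : D ≤ Nm Q := by rw [hN]; exact le_sup_right
  -- a second point
  obtain ⟨b₀, hb₀⟩ : ∃ b : G ⧸ Nm Q, b ≠ ((1 : G) : G ⧸ Nm Q) := by
    by_contra hcon
    push Not at hcon
    have : Nat.card (G ⧸ Nm Q) ≤ 1 := by
      rw [Finite.card_le_one_iff_subsingleton]
      exact ⟨fun a b => (hcon a).trans (hcon b).symm⟩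
    omega
  -- a nontrivial element of `Q`
  obtain ⟨u₀, hu₀Q, hu₀⟩ : ∃ u ∈ Q, u ≠ 1 := by
    by_contra hcon
    push Not at hcon
    have : Q = ⊥ := (Subgroup.eq_bot_iff_forall Q).2 hcon
    rw [this, Subgroup.card_bot] at hq3
    omega
  have htrans : ∀ a : G ⧸ Nm Q, ∃ g : G, g • a = ((1 : G) : G ⧸ Nm Q) := fun a =>
    MulAction.exists_smul_eq G a _
  -- the case of three points, one of them the base point
  have h3 : ∀ g : G, ∀ b c : G ⧸ Nm Q, b ≠ ((1 : G) : G ⧸ Nm Q) → c ≠ ((1 : G) : G ⧸ Nm Q) → b ≠ c →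
      g • ((1 : G) : G ⧸ Nm Q) = ((1 : G) : G ⧸ Nm Q) → g • b = b → g • c = c → g = 1 := by
    intro g b c hb hc hbc hg0 hgb hgc
    have hgN : g ∈ Nm Q := (fix0 _ g).1 hg0
    obtain ⟨v, hv, hvu⟩ := hreg b c hb hc
    have hv1 : (v : G) ≠ 1 := by
      intro h
      apply hbc
      have hv' : (v : G) • b = c := hv
      rw [h, one_smul] at hv'
      exact hv'
    have hconjQ : g * v * g⁻¹ ∈ Q := (Subgroup.mem_normalizer_iff.1 hgN v).1 v.2
    have hgb' : g⁻¹ • b = b := by rw [inv_smul_eq_iff, hgb]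
    have h1 : (g * v * g⁻¹) • b = c := by
      have hv' : (v : G) • b = c := hv
      rw [mul_smul, mul_smul, hgb', hv', hgc]
    have h2 := hvu ⟨g * v * g⁻¹, hconjQ⟩ h1
    have h3 : g * v * g⁻¹ = v := congrArg Subtype.val h2
    have hgC : g ∈ C (v : G) := by
      rw [Subgroup.mem_centralizer_singleton_iff]
      calc g * (v : G) = (g * v * g⁻¹) * g := by group
        _ = v * g := by rw [h3]
    rw [hC v v.2 hv1] at hgC
    obtain ⟨w, _, hwu⟩ := hreg b b hb hb
    have e1 := hwu ⟨g, hgC⟩ hgb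
    have e2 := hwu 1 (one_smul _ b)
    have := congrArg Subtype.val (e1.trans e2.symm)
    exact this
  refine ⟨?_, ?_, ?_, ?_, ?_⟩
  · -- faithful
    constructor
    intro g₁ g₂ h
    have hker : (MulAction.toPermHom G (G ⧸ Nm Q)).ker = ⊥ := by
      rcases (MulAction.toPermHom G (G ⧸ Nm Q)).normal_ker.eq_bot_or_eq_top with h0 | h0
      · exact h0
      · exfalso
        obtain ⟨g, hg⟩ := htrans b₀
        have hmem : g ∈ (MulAction.toPermHom G (G ⧸ Nm Q)).ker := by rw [h0]; trivial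
        rw [MonoidHom.mem_ker] at hmem
        have := congrArg (fun σ : Equiv.Perm (G ⧸ Nm Q) => σ b₀) hmem
        simp only [MulAction.toPermHom_apply, MulAction.toPerm_apply, Equiv.Perm.coe_one, id_eq] at this
        exact hb₀ (this.symm.trans hg)
    have hinj := (MonoidHom.ker_eq_bot_iff _).1 hker
    apply hinj
    ext a
    exact h a
  · -- doubly transitive
    rw [MulAction.is_two_pretransitive_iff]
    intro a b c d hab hcd
    obtain ⟨g₁, hg₁⟩ := htrans a
    obtain ⟨g₂, hg₂⟩ := htrans c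
    have hb : g₁ • b ≠ ((1 : G) : G ⧸ Nm Q) := by
      intro h
      exact hab (MulAction.injective g₁ (hg₁.trans h.symm))
    have hd : g₂ • d ≠ ((1 : G) : G ⧸ Nm Q) := by
      intro h
      exact hcd (MulAction.injective g₂ (hg₂.trans h.symm))
    obtain ⟨u, hu, -⟩ := hreg _ _ hb hd
    have hu' : (u : G) • g₁ • b = g₂ • d := hu
    have hu0 : (u : G) • ((1 : G) : G ⧸ Nm Q) = ((1 : G) : G ⧸ Nm Q) := (fix0 _ _).2 (hQN u.2)
    refine ⟨g₂⁻¹ * u * g₁, ?_, ?_⟩
    · rw [mul_smul, mul_smul, hg₁, hu0, inv_smul_eq_iff, hg₂]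
    · rw [mul_smul, mul_smul, hu', inv_smul_smul]
  · -- three points
    intro g a b c hab hbc hac hga hgb hgc
    obtain ⟨h, hh⟩ := htrans a
    have key := h3 (h * g * h⁻¹) (h • b) (h • c)
      (fun e => hab (MulAction.injective h (hh.trans e.symm)))
      (fun e => hac (MulAction.injective h (hh.trans e.symm)))
      (fun e => hbc (MulAction.injective h e))
      (by rw [← hh, mul_smul, mul_smul, inv_smul_smul, hga])
      (by rw [mul_smul, mul_smul, inv_smul_smul, hgb])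
      (by rw [mul_smul, mul_smul, inv_smul_smul, hgc])
    have : g = h⁻¹ * (h * g * h⁻¹) * h := by group
    rw [this, key]
    group
  · -- two points
    have hD2 : Nat.card D ≠ 1 := by
      intro h1
      have hq : Nat.card Q = 3 := by omega
      rw [hq] at hG
      have h12 : Nat.card G = 12 := by omega
      have hsolv : Group.IsSolvable G :=
        H69G4Ord.solvable_of_dvd 2 3 2 1 Nat.prime_two Nat.prime_three (by rw [h12]; norm_num)
      obtain ⟨a, b, hab⟩ := hna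
      exact hab (IsSimpleGroup.comm_iff_isSolvable.2 hsolv a b)
    obtain ⟨x, hxD, hx1⟩ : ∃ x ∈ D, x ≠ 1 := by
      by_contra hcon
      push Not at hcon
      have : D = ⊥ := (Subgroup.eq_bot_iff_forall D).2 hcon
      rw [this, Subgroup.card_bot] at hD2
      exact hD2 rfl
    have hx0 : x • ((1 : G) : G ⧸ Nm Q) = ((1 : G) : G ⧸ Nm Q) := (fix0 _ _).2 (hDN hxD)
    have hxb : x • b₀ ≠ ((1 : G) : G ⧸ Nm Q) := by
      intro h
      exact hb₀ (MulAction.injective x (h.trans hx0.symm))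
    obtain ⟨u, hu, -⟩ := hreg _ _ hxb hb₀
    have hu' : (u : G) • x • b₀ = b₀ := hu
    have hu0 : (u : G) • ((1 : G) : G ⧸ Nm Q) = ((1 : G) : G ⧸ Nm Q) := (fix0 _ _).2 (hQN u.2)
    refine ⟨u * x, ?_, _, b₀, hb₀.symm, ?_, ?_⟩
    · intro h
      have hx : x = (u : G)⁻¹ := by
        rw [eq_inv_iff_mul_eq_one, ← h]
        have : Commute (u : G) x := by
          have e : x = (u : G)⁻¹ := eq_inv_of_mul_eq_one_right h
          rw [e]; exact (Commute.refl _).inv_right
        exact this.eq.symm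
      have hm : x ∈ Q ⊓ D := ⟨by rw [hx]; exact Q.inv_mem u.2, hxD⟩
      rw [hQD, Subgroup.mem_bot] at hm
      exact hx1 hm
    · rw [mul_smul, hx0, hu0]
    · rw [mul_smul, hu']
  · -- no regular normal subgroup
    intro N hNn hNt
    rcases hNn.eq_bot_or_eq_top with h0 | h0
    · exfalso
      subst h0
      obtain ⟨n, hn⟩ := hNt.exists_smul_eq b₀ ((1 : G) : G ⧸ Nm Q)
      have hn1 : (n : G) = 1 := n.2
      have : (n : G) • b₀ = ((1 : G) : G ⧸ Nm Q) := hn
      rw [hn1, one_smul] at this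
      exact hb₀ this
    · subst h0
      refine ⟨((1 : G) : G ⧸ Nm Q), ?_⟩
      intro h
      have hm : (⟨u₀, Subgroup.mem_top u₀⟩ : (⊤ : Subgroup G)) ∈
          MulAction.stabilizer (⊤ : Subgroup G) ((1 : G) : G ⧸ Nm Q) := by
        rw [MulAction.mem_stabilizer_iff]
        exact (fix0 _ _).2 (hQN hu₀Q)
      have hm' : (⟨u₀, Subgroup.mem_top u₀⟩ : (⊤ : Subgroup G)) ∈
          (⊥ : Subgroup (⊤ : Subgroup G)) := h ▸ hm
      exact hu₀ (congrArg Subtype.val (Subgroup.mem_bot.1 hm'))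

end Cfsg.Agent.Lib.H74BSWZassB
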