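import Mathlib

set_option autoImplicit false

/-! PROJECT 3304 = RI (row S3304, 3u), piece `GenSL` (est. 40m).  PURE MATHLIB.
SKETCH.  Either brute force (each of the 24 matrices is an explicit word in `u, v`), or: for `A = !![a,b;c,d]` of determinant 1: `u^x = !![1,x;0,1]`, `v^y = !![1,0;y,1]`; if `c ≠ 0`: `A = u^x v^c u^y` with `x = (a-1)/c`, `y = (d-1)/c`;
if `c = 0`: `v * A` has lower left entry `a ≠ 0`.  Or counting: the closure contains `u, v` (order 3) and `(u v)` of order 4, so its order is divisible by 12 and it is not ... (longer).  grep the library: `Helper6SL2Hom`, `Helper23CE0` have generation of `SL_2(F)` by transvections. -/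

namespace Cfsg.Agent.Lib.H78RiGenSL

/-- the upper transvection. -/
def u : Matrix.SpecialLinearGroup (Fin 2) (ZMod 3) := ⟨!![1, 1; 0, 1], by decide⟩

/-- the lower transvection. -/
def v : Matrix.SpecialLinearGroup (Fin 2) (ZMod 3) := ⟨!![1, 0; 1, 1], by decide⟩

theorem closure_uv : Subgroup.closure ({u, v} : Set (Matrix.SpecialLinearGroup (Fin 2) (ZMod 3))) = ⊤ := by
  have key : ∀ A : Matrix.SpecialLinearGroup (Fin 2) (ZMod 3), ∃ i j k l : Fin 3,
      A = v ^ (i : ℕ) * u ^ (j : ℕ) * v ^ (k : ℕ) * u ^ (l : ℕ) := by decide +kernel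
  rw [eq_top_iff]
  intro A _
  obtain ⟨i, j, k, l, rfl⟩ := key A
  have hu : u ∈ Subgroup.closure ({u, v} : Set (Matrix.SpecialLinearGroup (Fin 2) (ZMod 3))) :=
    Subgroup.subset_closure (by simp)
  have hv : v ∈ Subgroup.closure ({u, v} : Set (Matrix.SpecialLinearGroup (Fin 2) (ZMod 3))) :=
    Subgroup.subset_closure (by simp)
  exact mul_mem (mul_mem (mul_mem (pow_mem hv _) (pow_mem hu _)) (pow_mem hv _)) (pow_mem hu _)

end Cfsg.Agent.Lib.H78RiGenSL
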