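import Mathlib

set_option autoImplicit false

/-! PROJECT 3304 = RI (row S3304, 3u), piece `Pair` (est. 45m).  PURE MATHLIB, brute force.
`u = !![1,1;0,1]`, `v = !![1,0;1,1]`.  The pairs `(a, b)` of matrices of determinant 1 over `ZMod 3` with `a^3 = 1 = b^3`, `(a b)^4 = 1`, `a b ≠ 1`, are the 24 conjugates `(T u T⁻¹, T v T⁻¹)`, `T ∈ GL_2(3)`.
Stated with `T * u = a * T`, `T * v = b * T`, `det T ≠ 0`.
SKETCH.  Write `a = !![a0,a1;a2,a3]` (`Matrix.eta_fin_two`), the same for `b`; state the claim for 8 variables in `ZMod 3` with `∃ t0 t1 t2 t3 : ZMod 3` and prove it by `decide` (3^8 = 6561 cases times 81; if `decide` is too slow use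
`decide +kernel`, or first quantify only over `a` (reduce to `a = u` or `u⁻¹`-type normal forms), or split: `∀ a0 a1 a2 a3, _ → ∀ b0 b1 b2 b3, _`; `set_option maxRecDepth 100000`).  The hypotheses may be stated entrywise or with `Matrix` operations: `Matrix` over `Fin 2`, `ZMod 3` has decidable equality and `decide` can evaluate `!![..] * !![..]`. -/

namespace Cfsg.Agent.Lib.H78RiPair

theorem pair (a b : Matrix (Fin 2) (Fin 2) (ZMod 3)) (ha : a.det = 1) (hb : b.det = 1)
    (ha3 : a ^ 3 = 1) (hb3 : b ^ 3 = 1) (hab4 : (a * b) ^ 4 = 1) (hab : a * b ≠ 1) :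
    ∃ T : Matrix (Fin 2) (Fin 2) (ZMod 3), T.det ≠ 0 ∧ T * !![1, 1; 0, 1] = a * T ∧
      T * !![1, 0; 1, 1] = b * T := by
  revert a b
  decide +kernel

end Cfsg.Agent.Lib.H78RiPair
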