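import Mathlib
import Cfsg.Agent.Lib.H78RiPair
import Cfsg.Agent.Lib.H78RiGenSL

set_option autoImplicit false

/-! PROJECT 3304 = RI (row S3304, 3u), piece `AutSL` (est. 50m).
Every automorphism of `SL_2(3)` is conjugation by an element of `GL_2(3)`.
SKETCH.  `a := (α u).1`, `b := (α v).1` (`u, v` of `H78RiGenSL`).  `u ^ 3 = 1`, `v ^ 3 = 1`, `(u * v) ^ 4 = 1`, `u * v ≠ 1` by `decide`; apply `α` (`map_pow`, `map_mul`, injectivity) and take `.1` (`congrArg Subtype.val`, `Matrix.SpecialLinearGroup.coe_pow`, `coe_mul`).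
`Cfsg.Agent.Lib.H78RiPair.pair` gives `T₀` with `det T₀ ≠ 0`; `T := Matrix.GeneralLinearGroup.mkOfDetNeZero T₀ h`.  The set of `k` with `T₀ * k.1 = (α k).1 * T₀` is a subgroup (for inverses: multiply by `(α k)⁻¹` and `k⁻¹`; or use finiteness: `k⁻¹ = k ^ n`; or do the induction with `Subgroup.closure_induction`) containing `u, v`, so it is everything (`closure_uv`). -/

namespace Cfsg.Agent.Lib.H78RiAutSL

open Cfsg.Agent.Lib.H78RiGenSL

theorem aut_inner (α : MulAut (Matrix.SpecialLinearGroup (Fin 2) (ZMod 3))) :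
    ∃ T : GL (Fin 2) (ZMod 3), ∀ k : Matrix.SpecialLinearGroup (Fin 2) (ZMod 3),
      (T : Matrix (Fin 2) (Fin 2) (ZMod 3)) * (k : Matrix (Fin 2) (Fin 2) (ZMod 3))
        = ((α k : Matrix.SpecialLinearGroup (Fin 2) (ZMod 3)) : Matrix (Fin 2) (Fin 2) (ZMod 3))
          * (T : Matrix (Fin 2) (Fin 2) (ZMod 3)) := by
  have hu3 : u ^ 3 = 1 := by decide +kernel
  have hv3 : v ^ 3 = 1 := by decide +kernel
  have huv4 : (u * v) ^ 4 = 1 := by decide +kernel
  have huv : u * v ≠ 1 := by decide +kernel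
  have h1 : ((α u).1) ^ 3 = 1 := by
    have := congrArg Subtype.val (show (α u) ^ 3 = 1 by rw [← map_pow, hu3, map_one])
    simpa using this
  have h2 : ((α v).1) ^ 3 = 1 := by
    have := congrArg Subtype.val (show (α v) ^ 3 = 1 by rw [← map_pow, hv3, map_one])
    simpa using this
  have h3 : ((α u).1 * (α v).1) ^ 4 = 1 := by
    have := congrArg Subtype.val (show (α u * α v) ^ 4 = 1 by rw [← map_mul, ← map_pow, huv4, map_one])
    simpa using this
  have h4 : (α u).1 * (α v).1 ≠ 1 := by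
    intro h
    apply huv
    apply α.injective
    rw [map_mul, map_one]
    apply Subtype.ext
    simpa using h
  obtain ⟨T₀, hdet, hT1, hT2⟩ := Cfsg.Agent.Lib.H78RiPair.pair (α u).1 (α v).1 (α u).2 (α v).2 h1 h2 h3 h4
  refine ⟨Matrix.GeneralLinearGroup.mkOfDetNeZero T₀ hdet, ?_⟩
  intro k
  show T₀ * k.1 = (α k).1 * T₀
  have hk : k ∈ Subgroup.closure ({u, v} : Set (Matrix.SpecialLinearGroup (Fin 2) (ZMod 3))) := by
    rw [closure_uv]; trivial
  induction hk using Subgroup.closure_induction with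
  | mem x hx =>
    rcases hx with rfl | rfl
    · exact hT1
    · exact hT2
  | one => simp
  | mul x y _ _ hx hy =>
    have e1 : (x * y).1 = x.1 * y.1 := rfl
    have e2 : (α (x * y)).1 = (α x).1 * (α y).1 := by rw [map_mul]; rfl
    rw [e1, e2, ← mul_assoc, hx, mul_assoc, hy, mul_assoc]
  | inv x _ hx =>
    have e1 : x.1 * (x⁻¹).1 = 1 := by
      exact congrArg Subtype.val (mul_inv_cancel x)
    have e2 : (α x⁻¹).1 * (α x).1 = 1 := by
      exact congrArg Subtype.val (show α x⁻¹ * α x = 1 by rw [← map_mul, inv_mul_cancel, map_one])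
    calc T₀ * (x⁻¹).1 = ((α x⁻¹).1 * (α x).1) * T₀ * (x⁻¹).1 := by rw [e2, one_mul]
      _ = (α x⁻¹).1 * ((α x).1 * T₀) * (x⁻¹).1 := by simp only [mul_assoc]
      _ = (α x⁻¹).1 * (T₀ * x.1) * (x⁻¹).1 := by rw [hx]
      _ = (α x⁻¹).1 * T₀ * (x.1 * (x⁻¹).1) := by simp only [mul_assoc]
      _ = (α x⁻¹).1 * T₀ := by rw [e1, mul_one]

end Cfsg.Agent.Lib.H78RiAutSL
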