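import Mathlib

set_option autoImplicit false

/-! PROJECT 3304 = RI (row S3304, 3u), piece `InvSL` (est. 20m).  PURE MATHLIB.
SKETCH.  Reduce to the four entries (`Matrix.SpecialLinearGroup.ext`, `Matrix.det_fin_two`, `Matrix.mul_apply`, `Fin.sum_univ_two`) and
`∀ a b c d : ZMod 3, a * d - b * c = 1 → a * a + b * c = 1 → a * b + b * d = 0 → c * a + d * c = 0 → c * b + d * d = 1 → (a = 1 ∧ b = 0 ∧ c = 0 ∧ d = 1) ∨ (a = -1 ∧ b = 0 ∧ c = 0 ∧ d = -1) := by decide`. -/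

namespace Cfsg.Agent.Lib.H78RiInvSL

theorem sq_eq_one (A : Matrix.SpecialLinearGroup (Fin 2) (ZMod 3)) (h : A ^ 2 = 1) :
    A = 1 ∨ A = -1 := by
  revert A
  decide +kernel

end Cfsg.Agent.Lib.H78RiInvSL
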