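import Mathlib
import Cfsg.Agent.S0016
import Cfsg.Agent.Lib.H78RiInvSL

set_option autoImplicit false
set_option linter.style.haveILetI false

/-! PROJECT 3304 = RI (row S3304, 3u), piece `CaseA` (est. 60m).
SKETCH.  (1) `G` has at most one involution: if `t ^ 2 = 1`, `t ≠ 1` then `t ∈ K` and `φ ⟨t,_⟩ ^ 2 = 1`, so `φ ⟨t,_⟩ = -1` (`Cfsg.Agent.Lib.H78RiInvSL.sq_eq_one`), `t = φ.symm (-1)`.
(2) So two subgroups `H, H'` of order 2 of `↥P` are equal (each is `zpowers t` with `t` an involution).  `Cfsg.Agent.S0016.result 2 P.isPGroup' _`: `↥P` is cyclic or `≃* QuaternionGroup (2 ^ n)`.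
(3) `Nat.card P = 16`: `Sylow.card_eq_multiplicity`, `48 = 2 ^ 4 * 3` (or: `Nat.card P` is a power of 2 dividing 48 with `¬ 2 ∣ index`).  In the quaternion case `4 * 2 ^ n = 16` (`QuaternionGroup.card`, needs `NeZero (2 ^ n)`), `n = 2`, done.
(4) not cyclic: `Q ≤ P` (a normal 2-subgroup lies in every Sylow 2-subgroup: `Cfsg.Agent.Lib.Helper39Core.le_pCore` + `pCore_le_sylow`), `Q ≃* QuaternionGroup 2` is not commutative
(`a 1 * xa 0 ≠ xa 0 * a 1` by `decide`), a cyclic group is commutative (`IsCyclic.commGroup`). -/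

namespace Cfsg.Agent.Lib.H78RiCaseA

theorem q8_not_comm : (QuaternionGroup.a 1 * QuaternionGroup.xa 0 : QuaternionGroup 2) ≠
    QuaternionGroup.xa 0 * QuaternionGroup.a 1 := by decide

theorem quat16 {G : Type*} [Group G] [Finite G] (h48 : Nat.card G = 48) (K : Subgroup G)
    (φ : K ≃* Matrix.SpecialLinearGroup (Fin 2) (ZMod 3)) (hA : ∀ t : G, t ^ 2 = 1 → t ∈ K)
    (Q : Subgroup G) (hQn : Q.Normal) (e : Q ≃* QuaternionGroup 2) (P : Sylow 2 G) :
    Nonempty (↥(P : Subgroup G) ≃* QuaternionGroup 4) := by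
  haveI : Fact (Nat.Prime 2) := ⟨Nat.prime_two⟩
  set z : G := ((φ.symm (-1) : K) : G) with hz
  have hinv : ∀ t : G, t ^ 2 = 1 → t ≠ 1 → t = z := by
    intro t ht ht1
    have htK := hA t ht
    have h1 : (φ ⟨t, htK⟩) ^ 2 = 1 := by
      rw [← map_pow]
      have : (⟨t, htK⟩ : K) ^ 2 = 1 := Subtype.ext (by simpa using ht)
      rw [this, map_one]
    rcases H78RiInvSL.sq_eq_one _ h1 with h | h
    · exfalso
      apply ht1
      have : (⟨t, htK⟩ : K) = 1 := by
        apply φ.injective
        rw [h, map_one]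
      exact congrArg Subtype.val this
    · have : (⟨t, htK⟩ : K) = φ.symm (-1) := by
        rw [← h]; simp
      exact congrArg Subtype.val this
  have key : ∀ H : Subgroup (P : Subgroup G), Nat.card H = 2 →
      ∀ x : (P : Subgroup G), x ∈ H ↔ (x = 1 ∨ (x : G) = z) := by
    intro H hH x
    have hsq : ∀ y ∈ H, (y : G) ^ 2 = 1 := by
      intro y hy
      have := pow_card_eq_one' (G := H) (x := ⟨y, hy⟩)
      rw [hH] at this
      have h2 := congrArg (fun w : H => ((w : (P : Subgroup G)) : G)) this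
      simpa using h2
    haveI : Nontrivial H := by
      rw [← Finite.one_lt_card_iff_nontrivial, hH]; norm_num
    obtain ⟨a, ha⟩ := exists_ne (1 : H)
    have haz : ((a : (P : Subgroup G)) : G) = z := by
      apply hinv _ (hsq a a.2)
      intro h
      apply ha
      apply Subtype.ext
      apply Subtype.ext
      simpa using h
    constructor
    · intro hx
      by_cases hx1 : x = 1
      · left; exact hx1
      · right
        apply hinv _ (hsq x hx)
        intro h
        apply hx1
        apply Subtype.ext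
        simpa using h
    · rintro (rfl | hx)
      · exact H.one_mem
      · have : x = (a : (P : Subgroup G)) := Subtype.ext (hx.trans haz.symm)
        rw [this]; exact a.2
  have huniq : ∀ H H' : Subgroup (P : Subgroup G), Nat.card H = 2 → Nat.card H' = 2 → H = H' := by
    intro H H' hH hH'
    ext x
    rw [key H hH, key H' hH']
  have hcard : Nat.card (P : Subgroup G) = 16 := by
    obtain ⟨k, hk⟩ := P.2.exists_card_eq
    have hmul := (P : Subgroup G).card_mul_index
    rw [hk, h48] at hmul
    have hnd := P.not_dvd_index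
    have hk5 : k < 6 := by
      by_contra hcon
      push Not at hcon
      have h1 : 2 ^ 6 ≤ 2 ^ k := Nat.pow_le_pow_right (by norm_num) hcon
      have h2 : 2 ^ k ∣ 48 := Dvd.intro _ hmul
      have h3 := Nat.le_of_dvd (by norm_num) h2
      omega
    rw [hk]
    interval_cases k <;> omega
  have hQ8 : Nat.card Q = 8 := by
    rw [Nat.card_congr e.toEquiv, Nat.card_eq_fintype_card, QuaternionGroup.card]
  have hQ2 : IsPGroup 2 Q := IsPGroup.of_card (n := 3) (by rw [hQ8]; norm_num)
  have hQP : Q ≤ (P : Subgroup G) := by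
    obtain ⟨P', hP'⟩ := hQ2.exists_le_sylow
    obtain ⟨g, hg⟩ := MulAction.exists_smul_eq G P' P
    intro x hx
    rw [← hg, Sylow.coe_subgroup_smul, Subgroup.mem_smul_pointwise_iff_exists]
    refine ⟨g⁻¹ * x * g, hP' ?_, ?_⟩
    · have := hQn.conj_mem x hx g⁻¹
      simpa using this
    · rw [MulAut.smul_def, MulAut.conj_apply]; group
  rcases Cfsg.Agent.S0016.result 2 P.2 huniq with hc | ⟨-, n, ⟨f⟩⟩
  · exfalso
    apply q8_not_comm
    have hcomm := (IsCyclic.commGroup (α := (P : Subgroup G))).mul_comm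
      ⟨(e.symm (QuaternionGroup.a 1) : G), hQP (e.symm (QuaternionGroup.a 1)).2⟩
      ⟨(e.symm (QuaternionGroup.xa 0) : G), hQP (e.symm (QuaternionGroup.xa 0)).2⟩
    have h2 : e.symm (QuaternionGroup.a 1) * e.symm (QuaternionGroup.xa 0) =
        e.symm (QuaternionGroup.xa 0) * e.symm (QuaternionGroup.a 1) := by
      apply Subtype.ext
      have h3 := congrArg (fun w : (P : Subgroup G) => (w : G)) hcomm
      simpa using h3
    rw [← map_mul, ← map_mul] at h2
    exact e.symm.injective h2
  · have h1 : Nat.card (P : Subgroup G) = 4 * 2 ^ n := by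
      rw [Nat.card_congr f.toEquiv, Nat.card_eq_fintype_card, QuaternionGroup.card]
    have h2 : 2 ^ n = 2 ^ 2 := by omega
    have h3 : n = 2 := Nat.pow_right_injective (le_refl 2) h2
    subst h3
    exact ⟨f⟩

end Cfsg.Agent.Lib.H78RiCaseA
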