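import Mathlib

set_option autoImplicit false

/-! PROJECT 3304 = RI (row S3304, 3u), piece `Cen` (est. 45m).  PURE MATHLIB.
SKETCH.  `z := (e.symm (QuaternionGroup.a 2) : G)`.  By `decide` in `QuaternionGroup 2`: `∀ q, (∀ x, x * q = q * x) → q = 1 ∨ q = a 2`; `∀ x, x * a 2 = a 2 * x`; `∀ q, q ^ 2 = 1 → q ≠ 1 → q = a 2`; `a 2 ^ 2 = 1`, `a 2 ≠ 1`
(cf. the private lemmas at the top of `Cfsg/Agent/Lib/H78SdFin.lean`, copy them).
(1) `centralizer Q = zpowers z`: `⊆`: `g ∈ centralizer Q ≤ Q`, `e ⟨g,_⟩` is central in `QuaternionGroup 2`.  `⊇` clear.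
(2) `z ∈ center G`: for `g : G`, `g z g⁻¹ ∈ Q` (normal) is an involution of `Q`, so it is `z` (unique involution).
(3) `center G ≤ centralizer Q` (`Subgroup.center_le_centralizer`).  So `center G = zpowers z = centralizer Q`, of order `orderOf z = 2` (`Nat.card_zpowers`, `orderOf_eq_prime`). -/

namespace Cfsg.Agent.Lib.H78RiCen

private theorem q8_central : ∀ q : QuaternionGroup 2, (∀ x : QuaternionGroup 2, x * q = q * x) →
    q = 1 ∨ q = QuaternionGroup.a 2 := by decide

private theorem q8_inv : ∀ q : QuaternionGroup 2, q ^ 2 = 1 → q ≠ 1 → q = QuaternionGroup.a 2 := by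
  decide

private theorem q8_a2_sq : (QuaternionGroup.a 2 : QuaternionGroup 2) ^ 2 = 1 := by decide

private theorem q8_a2_ne : (QuaternionGroup.a 2 : QuaternionGroup 2) ≠ 1 := by decide

theorem card_center {G : Type*} [Group G] [Finite G] (Q : Subgroup G) (hQn : Q.Normal)
    (e : Q ≃* QuaternionGroup 2) (hCQ : Subgroup.centralizer (Q : Set G) ≤ Q) :
    Nat.card (Subgroup.center G) = 2 ∧ Subgroup.centralizer (Q : Set G) = Subgroup.center G := by
  have : Fact (Nat.Prime 2) := ⟨Nat.prime_two⟩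
  let zq : ↥Q := e.symm (QuaternionGroup.a 2)
  let z : G := (zq : G)
  have hzQ : z ∈ Q := zq.2
  have hzq2 : zq ^ 2 = 1 := by
    show (e.symm (QuaternionGroup.a 2)) ^ 2 = 1
    rw [← map_pow, q8_a2_sq, map_one]
  have hz2 : z ^ 2 = 1 := by
    have h2 := congrArg (fun q : ↥Q => (q : G)) hzq2
    simpa [z] using h2
  have hzq1 : zq ≠ 1 := by
    intro h2
    have h3 : (QuaternionGroup.a 2 : QuaternionGroup 2) = 1 := by
      have := congrArg e h2
      simpa [zq] using this
    exact q8_a2_ne h3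
  have hz1 : z ≠ 1 := by
    intro h
    exact hzq1 (Subtype.ext h)
  have hzo : orderOf z = 2 := orderOf_eq_prime hz2 hz1
  -- unique involution of Q
  have huniq : ∀ w : G, w ∈ Q → w ^ 2 = 1 → w ≠ 1 → w = z := by
    intro w hw hw2 hw1
    have h1 : (e ⟨w, hw⟩) ^ 2 = 1 := by
      rw [← map_pow]
      have : (⟨w, hw⟩ : ↥Q) ^ 2 = 1 := Subtype.ext (by simpa using hw2)
      rw [this, map_one]
    have h2 : e ⟨w, hw⟩ ≠ 1 := by
      intro h
      have : (⟨w, hw⟩ : ↥Q) = 1 := by
        have := congrArg e.symm h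
        simpa using this
      exact hw1 (congrArg (fun q : ↥Q => (q : G)) this)
    have h3 := q8_inv _ h1 h2
    have h4 : (⟨w, hw⟩ : ↥Q) = zq := by
      have := congrArg e.symm h3
      simpa [zq] using this
    exact congrArg (fun q : ↥Q => (q : G)) h4
  have hzc : z ∈ Subgroup.center G := by
    rw [Subgroup.mem_center_iff]
    intro g
    have h1 : g * z * g⁻¹ ∈ Q := hQn.conj_mem z hzQ g
    have h2 : (g * z * g⁻¹) ^ 2 = 1 := by
      rw [conj_pow, hz2]; group
    have h3 : g * z * g⁻¹ ≠ 1 := by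
      intro h
      apply hz1
      have : z = g⁻¹ * (g * z * g⁻¹) * g := by group
      rw [this, h]; group
    have h4 := huniq _ h1 h2 h3
    calc g * z = (g * z * g⁻¹) * g := by group
      _ = z * g := by rw [h4]
  have hcen : Subgroup.centralizer (Q : Set G) ≤ Subgroup.zpowers z := by
    intro x hx
    have hxQ : x ∈ Q := hCQ hx
    rw [Subgroup.mem_centralizer_iff] at hx
    have hcomm : ∀ w : QuaternionGroup 2, w * e ⟨x, hxQ⟩ = e ⟨x, hxQ⟩ * w := by
      intro w
      have h1 := hx (e.symm w : ↥Q) (e.symm w).2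
      have h2 : (e.symm w) * (⟨x, hxQ⟩ : ↥Q) = ⟨x, hxQ⟩ * (e.symm w) := Subtype.ext h1
      have h3 := congrArg e h2
      simpa using h3
    rcases q8_central _ hcomm with h | h
    · have : (⟨x, hxQ⟩ : ↥Q) = 1 := by
        have := congrArg e.symm h
        simpa using this
      have hx1 : x = 1 := congrArg (fun q : ↥Q => (q : G)) this
      rw [hx1]; exact one_mem _
    · have : (⟨x, hxQ⟩ : ↥Q) = zq := by
        have := congrArg e.symm h
        simpa [zq] using this
      have hx1 : x = z := congrArg (fun q : ↥Q => (q : G)) this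
      rw [hx1]; exact Subgroup.mem_zpowers z
  have hzle : Subgroup.zpowers z ≤ Subgroup.center G := by
    rw [Subgroup.zpowers_le]; exact hzc
  have hcc : Subgroup.center G ≤ Subgroup.centralizer (Q : Set G) := Subgroup.center_le_centralizer _
  have heq1 : Subgroup.centralizer (Q : Set G) = Subgroup.center G :=
    le_antisymm (hcen.trans hzle) hcc
  have heq2 : Subgroup.center G = Subgroup.zpowers z :=
    le_antisymm (hcc.trans hcen) hzle
  refine ⟨?_, heq1⟩
  rw [heq2, Nat.card_zpowers, hzo]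

end Cfsg.Agent.Lib.H78RiCen
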