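import Mathlib

set_option autoImplicit false

/-! PROJECT 3304 = RI (row S3304, 3u), piece `Ext` (est. 60m).  PURE MATHLIB.
Extension of a homomorphism from a normal subgroup of index 2 with a complement `⟨t⟩`.
SKETCH.  Every `g : G` is in `K` or `g * t ∈ K` (index 2: `Subgroup.mul_mem_iff_of_index_two`: `a * b ∈ K ↔ (a ∈ K ↔ b ∈ K)`).  Define (classical) `Φ g := if h : g ∈ K then φ ⟨g, h⟩ else φ ⟨g * t, _⟩ * T` (note `t⁻¹ = t`, `T⁻¹ = T`).
Multiplicativity: four cases.  `g, g' ∈ K`: `map_mul`.  `g ∈ K, g' ∉ K`: `g g' t = g (g' t)`.  `g ∉ K, g' ∈ K`: `g g' t = (g t)(t g' t)` and `φ(t g' t⁻¹) = T φ(g') T⁻¹`, so `φ(g g' t) T = φ(g t) T φ(g') T⁻¹ T`.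
`g, g' ∉ K`: `g g' = (g t)(t (g' t) t⁻¹)`..., `T * T = 1`.  `MonoidHom.mk'`.
(Alternative: `SemidirectProduct.lift`, longer.) -/

namespace Cfsg.Agent.Lib.H78RiExt

theorem exists_ext {G H : Type*} [Group G] [Group H] (K : Subgroup G) (hK2 : K.index = 2)
    (hKn : K.Normal) (t : G) (ht : t * t = 1) (htK : t ∉ K) (φ : K →* H) (T : H) (hT : T * T = 1)
    (hc : ∀ k : K, φ ⟨t * k * t⁻¹, hKn.conj_mem k k.2 t⟩ = T * φ k * T⁻¹) :
    ∃ Φ : G →* H, (∀ k : K, Φ k = φ k) ∧ Φ t = T := by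
  classical
  have hmem : ∀ a b : G, a * b ∈ K ↔ (a ∈ K ↔ b ∈ K) := fun a b => Subgroup.mul_mem_iff_of_index_two hK2
  have htinv : t⁻¹ = t := inv_eq_of_mul_eq_one_left ht
  have hTinv : T⁻¹ = T := inv_eq_of_mul_eq_one_left hT
  have hgt : ∀ g : G, g ∉ K → g * t ∈ K := fun g hg => (hmem g t).2 ⟨fun h => (hg h).elim, fun h => (htK h).elim⟩
  -- φ on raw elements
  have hφmul : ∀ (a b : G) (ha : a ∈ K) (hb : b ∈ K) (hab : a * b ∈ K),
      φ ⟨a * b, hab⟩ = φ ⟨a, ha⟩ * φ ⟨b, hb⟩ := by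
    intro a b ha hb hab
    rw [← map_mul]; rfl
  have hφc : ∀ (k : G) (hk : k ∈ K) (hk' : t * k * t ∈ K), φ ⟨t * k * t, hk'⟩ = T * φ ⟨k, hk⟩ * T := by
    intro k hk hk'
    have := hc ⟨k, hk⟩
    rw [hTinv] at this
    rw [← this]
    congr 2
    rw [htinv]
  have hφcongr : ∀ (a b : G) (ha : a ∈ K) (hb : b ∈ K), a = b → φ ⟨a, ha⟩ = φ ⟨b, hb⟩ := by
    intro a b ha hb h; subst h; rfl
  let F : G → H := fun g => if h : g ∈ K then φ ⟨g, h⟩ else φ ⟨g * t, hgt g h⟩ * T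
  have hF1 : ∀ (g : G) (h : g ∈ K), F g = φ ⟨g, h⟩ := fun g h => dif_pos h
  have hF2 : ∀ (g : G) (h : g ∉ K), F g = φ ⟨g * t, hgt g h⟩ * T := fun g h => dif_neg h
  have hFmul : ∀ a b : G, F (a * b) = F a * F b := by
    intro a b
    by_cases ha : a ∈ K <;> by_cases hb : b ∈ K
    · have hab : a * b ∈ K := K.mul_mem ha hb
      rw [hF1 _ hab, hF1 _ ha, hF1 _ hb, hφmul a b ha hb]
    · have hab : a * b ∉ K := fun h => hb (((hmem a b).1 h).1 ha)
      rw [hF2 _ hab, hF1 _ ha, hF2 _ hb, ← mul_assoc, ← hφmul a (b * t) ha (hgt b hb) (K.mul_mem ha (hgt b hb))]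
      congr 1
      exact hφcongr _ _ _ _ (mul_assoc a b t)
    · have hab : a * b ∉ K := fun h => ha (((hmem a b).1 h).2 hb)
      have htb : t * b * t ∈ K := by
        have := hKn.conj_mem b hb t
        rwa [htinv] at this
      rw [hF2 _ hab, hF2 _ ha, hF1 _ hb]
      have e1 : a * b * t = (a * t) * (t * b * t) := by
        calc a * b * t = a * (t * t) * b * t := by rw [ht, mul_one]
          _ = _ := by simp only [mul_assoc]
      rw [hφcongr _ _ (hgt _ hab) (K.mul_mem (hgt a ha) htb) e1,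
        hφmul _ _ (hgt a ha) htb, hφc b hb htb]
      calc φ ⟨a * t, hgt a ha⟩ * (T * φ ⟨b, hb⟩ * T) * T
          = φ ⟨a * t, hgt a ha⟩ * T * φ ⟨b, hb⟩ * (T * T) := by simp only [mul_assoc]
        _ = _ := by rw [hT, mul_one]
    · have hab : a * b ∈ K := (hmem a b).2 ⟨fun h => (ha h).elim, fun h => (hb h).elim⟩
      have hbt := hgt b hb
      have htb : t * (b * t) * t ∈ K := by
        have := hKn.conj_mem (b * t) hbt t
        rwa [htinv] at this
      rw [hF1 _ hab, hF2 _ ha, hF2 _ hb]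
      have e1 : a * b = (a * t) * (t * (b * t) * t) := by
        calc a * b = a * (t * t) * b * (t * t) := by rw [ht, mul_one, mul_one]
          _ = _ := by simp only [mul_assoc]
      rw [hφcongr _ _ hab (K.mul_mem (hgt a ha) htb) e1,
        hφmul _ _ (hgt a ha) htb, hφc (b * t) hbt htb]
      simp only [mul_assoc]
  refine ⟨MonoidHom.mk' F hFmul, ?_, ?_⟩
  · intro k
    show F k = φ k
    rw [hF1 _ k.2]
  · show F t = T
    rw [hF2 _ htK]
    have : φ ⟨t * t, hgt t htK⟩ = 1 := by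
      rw [hφcongr _ _ _ K.one_mem ht]
      exact map_one φ
    rw [this, one_mul]

end Cfsg.Agent.Lib.H78RiExt
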