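import Mathlib

set_option autoImplicit false

/-! PROJECT 3304 = RI (row S3304, 3u), piece `TSq` (est. 30m).  PURE MATHLIB, brute force.
SKETCH.  `T = !![a,b;c,d]` (`Matrix.eta_fin_two`).  `h1`, `h2` say that `T * T` commutes with the two transvections, so `T * T` is scalar.  Everything is a statement on `a b c d : ZMod 3`: prove
`∀ a b c d : ZMod 3, a * d - b * c = -1 → (commutation equations entrywise) → (T*T entries = 1 0 0 1)` by `decide` (81 cases), after `Matrix.det_fin_two`, `Matrix.mul_fin_two`/`simp [Matrix.mul_apply, Fin.sum_univ_two]`, `Matrix.ext_iff`/`← Matrix.ext_iff`, `Fin.forall_fin_two`.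
(Or directly `decide` on `∀ T : Matrix (Fin 2) (Fin 2) (ZMod 3), ...`, the type is a `Fintype` with decidable equality: `revert T; decide`.)
Mathematically: `T² = tr(T) T - det T = tr(T) T + 1`; `T²` scalar and `T` not scalar (`det = -1` is not a square) force `tr T = 0`. -/

namespace Cfsg.Agent.Lib.H78RiTSq

theorem sq_eq_one (T : Matrix (Fin 2) (Fin 2) (ZMod 3)) (hd : T.det = -1)
    (h1 : T * T * !![1, 1; 0, 1] = !![1, 1; 0, 1] * (T * T))
    (h2 : T * T * !![1, 0; 1, 1] = !![1, 0; 1, 1] * (T * T)) : T * T = 1 := by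
  revert T
  decide +kernel

end Cfsg.Agent.Lib.H78RiTSq
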