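import Mathlib
import Cfsg.Agent.Lib.H78RiAutSL
import Cfsg.Agent.Lib.H78RiTSq
import Cfsg.Agent.Lib.H78RiExt
import Cfsg.Agent.Lib.Helper7SL

set_option autoImplicit false
set_option linter.style.haveILetI false

/-! PROJECT 3304 = RI (row S3304, 3u), piece `GL` (est. 90m, assembly of case B; may be written now against the stubs).
SKETCH.  `L := SL_2(3)`, `ι : L →* GL_2(3)` the inclusion (`Matrix.SpecialLinearGroup.toGL`).  `c_t : MulAut ↥K := MulAut.conjNormal t`, `α := φ.symm.trans (c_t.trans φ) : MulAut L`, so `α (φ k) = φ (t k t⁻¹)`.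
`Cfsg.Agent.Lib.H78RiAutSL.aut_inner α` gives `T : GL_2(3)` with `T * k = α k * T`.
(a) `det T ≠ 1`: otherwise `T = ι T₁` with `T₁ : L`; `k₁ := φ.symm T₁ ∈ K`; then `t k t⁻¹ = k₁ k k₁⁻¹` for all `k ∈ K`, so `k₁⁻¹ t` centralizes `K`, `hCK` gives `k₁⁻¹ t ∈ K`, `t ∈ K`: contradiction.  `det T` is a unit of `ZMod 3`, `≠ 0, 1`, so `= -1` (`decide` on `ZMod 3`).
(b) `α (α k) = k` (`t * t = 1`), so `T * T * k = k * (T * T)` for all `k : L`, in particular for `u, v`: `Cfsg.Agent.Lib.H78RiTSq.sq_eq_one` gives `T * T = 1`.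
(c) `K.index = 2` (`Subgroup.card_mul_index`, `Nat.card K = Nat.card L = 24`: `Nat.card_congr φ.toEquiv`; `Nat.card L = 24`: grep `card_SL23`/`Cfsg.Agent.S0242`/`Helper75SlT5a`, or `Fintype.card` by `decide`/`rfl`).
`Cfsg.Agent.Lib.H78RiExt.exists_ext K _ hKn t ht htK (ι.comp φ.toMonoidHom) T _ _` gives `Φ : G →* GL_2(3)`.
(d) `Φ` injective: `Φ g = 1`; if `g ∈ K` then `ι (φ g) = 1`, `g = 1`; if `g ∉ K` then `g t ∈ K`..., `Φ g = ι(φ(g t)) T⁻¹` has determinant `-1 ≠ 1`.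
(e) `Nat.card (GL (Fin 2) (ZMod 3)) = 48` (`Cfsg.Agent.S3370.card_GL` / `Cfsg.Agent.S1598.card_GL23` / `Matrix.card_GL_field`), so `Φ` is bijective (`Nat.bijective_iff_injective_and_card`). -/

namespace Cfsg.Agent.Lib.H78RiGL

theorem zmod3_aux : ∀ d : ZMod 3, d ≠ 0 → d ≠ 1 → d = -1 := by decide

theorem card_GL' : Nat.card (GL (Fin 2) (ZMod 3)) = 48 := by
  rw [Matrix.card_GL_field]
  simp [Fin.prod_univ_two, ZMod.card]

theorem card_SL' : Nat.card (Matrix.SpecialLinearGroup (Fin 2) (ZMod 3)) = 24 := by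
  rw [Cfsg.Agent.Lib.Helper7SL.card_SL_two, ZMod.card]
  norm_num

theorem gl23 {G : Type*} [Group G] [Finite G] (h48 : Nat.card G = 48) (K : Subgroup G)
    (hKn : K.Normal) (φ : K ≃* Matrix.SpecialLinearGroup (Fin 2) (ZMod 3))
    (hCK : ∀ g : G, (∀ k ∈ K, g * k = k * g) → g ∈ K) (t : G) (ht : t * t = 1) (htK : t ∉ K) :
    Nonempty (G ≃* GL (Fin 2) (ZMod 3)) := by
  haveI := hKn
  have htinv : t⁻¹ = t := inv_eq_of_mul_eq_one_left ht
  let ct : MulAut K := MulAut.conjNormal t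
  have hct : ∀ k : K, ((ct k : K) : G) = t * k * t⁻¹ := fun k => MulAut.conjNormal_apply t k
  have hct2 : ∀ k : K, ct (ct k) = k := by
    intro k
    apply Subtype.ext
    rw [hct, hct, htinv]
    calc t * (t * k * t) * t = (t * t) * k * (t * t) := by group
      _ = k := by rw [ht]; simp
  let α : MulAut (Matrix.SpecialLinearGroup (Fin 2) (ZMod 3)) := φ.symm.trans (ct.trans φ)
  have hα : ∀ l, α l = φ (ct (φ.symm l)) := fun l => rfl
  have hαα : ∀ l, α (α l) = l := by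
    intro l
    rw [hα, hα, MulEquiv.symm_apply_apply, hct2, MulEquiv.apply_symm_apply]
  obtain ⟨T, hT⟩ := Cfsg.Agent.Lib.H78RiAutSL.aut_inner α
  -- (a)
  have hdet1 : (T : Matrix (Fin 2) (Fin 2) (ZMod 3)).det ≠ 1 := by
    intro hd
    let T₁ : Matrix.SpecialLinearGroup (Fin 2) (ZMod 3) := ⟨T, hd⟩
    have h1 : ∀ l, T₁ * l = α l * T₁ := by
      intro l
      apply Subtype.ext
      exact hT l
    let k₁ : K := φ.symm T₁
    have h2 : ∀ k : K, ct k = k₁ * k * k₁⁻¹ := by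
      intro k
      apply φ.injective
      have h3 := h1 (φ k)
      rw [hα, MulEquiv.symm_apply_apply] at h3
      rw [map_mul, map_mul, map_inv]
      have : φ k₁ = T₁ := MulEquiv.apply_symm_apply φ T₁
      rw [this, h3]; group
    apply htK
    have h4 : (k₁ : G)⁻¹ * t ∈ K := by
      apply hCK
      intro k hk
      have h5 := congrArg Subtype.val (h2 ⟨k, hk⟩)
      rw [hct] at h5
      simp only [Subgroup.coe_mul, Subgroup.coe_inv] at h5
      calc (k₁ : G)⁻¹ * t * k = (k₁ : G)⁻¹ * (t * k * t⁻¹) * t := by group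
        _ = (k₁ : G)⁻¹ * ((k₁ : G) * k * (k₁ : G)⁻¹) * t := by rw [h5]
        _ = k * ((k₁ : G)⁻¹ * t) := by group
    have h6 := K.mul_mem k₁.2 h4
    simpa using h6
  have hdet0 : (T : Matrix (Fin 2) (Fin 2) (ZMod 3)).det ≠ 0 :=
    ((Matrix.isUnit_iff_isUnit_det _).1 T.isUnit).ne_zero
  have hdet : (T : Matrix (Fin 2) (Fin 2) (ZMod 3)).det = -1 := zmod3_aux _ hdet0 hdet1
  -- (b)
  have hTT : ∀ l : Matrix.SpecialLinearGroup (Fin 2) (ZMod 3),
      (T : Matrix (Fin 2) (Fin 2) (ZMod 3)) * T * (l : Matrix (Fin 2) (Fin 2) (ZMod 3)) =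
        (l : Matrix (Fin 2) (Fin 2) (ZMod 3)) * ((T : Matrix (Fin 2) (Fin 2) (ZMod 3)) * T) := by
    intro l
    have e1 := hT l
    have e2 := hT (α l)
    rw [hαα] at e2
    rw [Matrix.mul_assoc, e1, ← Matrix.mul_assoc, e2, Matrix.mul_assoc]
  have hsq : (T : Matrix (Fin 2) (Fin 2) (ZMod 3)) * T = 1 := by
    apply Cfsg.Agent.Lib.H78RiTSq.sq_eq_one _ hdet
    · exact hTT ⟨!![1, 1; 0, 1], by simp [Matrix.det_fin_two]⟩
    · exact hTT ⟨!![1, 0; 1, 1], by simp [Matrix.det_fin_two]⟩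
  have hsq' : T * T = 1 := Units.ext hsq
  -- (c)
  have hK24 : Nat.card K = 24 := by rw [Nat.card_congr φ.toEquiv, card_SL']
  have hK2 : K.index = 2 := by
    have := K.card_mul_index
    rw [hK24, h48] at this
    omega
  let ι : Matrix.SpecialLinearGroup (Fin 2) (ZMod 3) →* GL (Fin 2) (ZMod 3) :=
    Matrix.SpecialLinearGroup.toGL
  have hc : ∀ k : K, (ι.comp φ.toMonoidHom) ⟨t * k * t⁻¹, hKn.conj_mem k k.2 t⟩ =
      T * (ι.comp φ.toMonoidHom) k * T⁻¹ := by
    intro k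
    rw [eq_mul_inv_iff_mul_eq]
    apply Units.ext
    have e1 := hT (φ k)
    rw [hα, MulEquiv.symm_apply_apply] at e1
    have e2 : ct k = ⟨t * k * t⁻¹, hKn.conj_mem k k.2 t⟩ := Subtype.ext (hct k)
    rw [e2] at e1
    exact e1.symm
  obtain ⟨Φ, hΦK, hΦt⟩ := Cfsg.Agent.Lib.H78RiExt.exists_ext K hK2 hKn t ht htK
    (ι.comp φ.toMonoidHom) T hsq' hc
  have hinj : Function.Injective Φ := by
    rw [injective_iff_map_eq_one]
    intro g hg
    by_cases hgK : g ∈ K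
    · have h1 := hΦK ⟨g, hgK⟩
      rw [show ((⟨g, hgK⟩ : K) : G) = g from rfl, hg] at h1
      have h2 : φ ⟨g, hgK⟩ = 1 := by
        apply Matrix.SpecialLinearGroup.toGL_injective
        rw [map_one]
        exact h1.symm
      have h3 : (⟨g, hgK⟩ : K) = 1 := by
        apply φ.injective
        rw [h2, map_one]
      exact congrArg Subtype.val h3
    · exfalso
      have hgt : g * t ∈ K := by
        rw [Subgroup.mul_mem_iff_of_index_two hK2]
        exact ⟨fun h => absurd h hgK, fun h => absurd h htK⟩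
      have h1 := hΦK ⟨g * t, hgt⟩
      rw [show ((⟨g * t, hgt⟩ : K) : G) = g * t from rfl, map_mul, hg, hΦt, one_mul] at h1
      apply hdet1
      rw [h1]
      exact (φ ⟨g * t, hgt⟩).2
  have hbij : Function.Bijective Φ := by
    rw [Nat.bijective_iff_injective_and_card]
    exact ⟨hinj, by rw [h48, card_GL']⟩
  exact ⟨MulEquiv.ofBijective Φ hbij⟩

end Cfsg.Agent.Lib.H78RiGL
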