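import Mathlib
import Cfsg.Prelude.Def_CaseTheorems
import Cfsg.Agent.Lib.Helper60Core

set_option autoImplicit false

/-! PROJECT 3304 = RI (row S3304, 3u), piece `Inh`: the hypothesis passes to `G ⧸ N`, `N` normal of odd order. -/

namespace Cfsg.Agent.Lib.H78RiInh

open scoped Pointwise

theorem inj_on {G : Type*} [Group G] [Finite G] (N : Subgroup G) [N.Normal]
    (hN : (Nat.card N).Coprime 2) (S : Sylow 2 G) {x : G} (hx : x ∈ (S : Subgroup G))
    (h1 : QuotientGroup.mk' N x = 1) : x = 1 := by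
  haveI : Fact (Nat.Prime 2) := ⟨Nat.prime_two⟩
  obtain ⟨k, hk⟩ := IsPGroup.iff_card.1 S.2
  have hbot : (S : Subgroup G) ⊓ N = ⊥ := by
    apply Subgroup.inf_eq_bot_of_coprime
    rw [hk]
    exact (Nat.Coprime.pow_right k hN).symm
  have hxN : x ∈ N := by
    rw [← QuotientGroup.ker_mk' N]
    exact h1
  have : x ∈ (S : Subgroup G) ⊓ N := ⟨hx, hxN⟩
  rw [hbot] at this
  exact Subgroup.mem_bot.1 this

theorem card_inf {G : Type*} [Group G] [Finite G] (N : Subgroup G) [N.Normal]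
    (hN : (Nat.card N).Coprime 2) (S : Sylow 2 G) (A' : Subgroup (G ⧸ N))
    (hA : A' ≤ (S : Subgroup G).map (QuotientGroup.mk' N)) :
    Nat.card ↥((S : Subgroup G) ⊓ A'.comap (QuotientGroup.mk' N)) = Nat.card A' := by
  set K : Subgroup G := (S : Subgroup G) ⊓ A'.comap (QuotientGroup.mk' N) with hK
  have hinj : Function.Injective ((QuotientGroup.mk' N).comp K.subtype) := by
    rw [injective_iff_map_eq_one]
    intro x hx
    apply Subtype.ext
    exact inj_on N hN S x.2.1 hx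
  have hrange : ((QuotientGroup.mk' N).comp K.subtype).range = A' := by
    ext z
    constructor
    · rintro ⟨x, rfl⟩
      exact x.2.2
    · intro hz
      obtain ⟨x, hxS, rfl⟩ := hA hz
      exact ⟨⟨x, hxS, hz⟩, rfl⟩
  rw [← hrange]
  exact Nat.card_congr (MonoidHom.ofInjective hinj).toEquiv

theorem inherit {G : Type*} [Group G] [Finite G] (N : Subgroup G) [N.Normal]
    (hN : (Nat.card N).Coprime 2)
    (hI : ∀ S T : Sylow 2 G, S ≠ T → Cfsg.PRankLE 2 1 ↥((S : Subgroup G) ⊓ (T : Subgroup G))) :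
    ∀ S T : Sylow 2 (G ⧸ N), S ≠ T →
      Cfsg.PRankLE 2 1 ↥((S : Subgroup (G ⧸ N)) ⊓ (T : Subgroup (G ⧸ N))) := by
  haveI : Fact (Nat.Prime 2) := ⟨Nat.prime_two⟩
  intro S' T' hne A hAc hAe
  have hπ : Function.Surjective (QuotientGroup.mk' N) := QuotientGroup.mk'_surjective N
  obtain ⟨S, rfl⟩ := Sylow.mapSurjective_surjective hπ 2 S'
  obtain ⟨T, rfl⟩ := Sylow.mapSurjective_surjective hπ 2 T'
  set π := QuotientGroup.mk' N with hπdef
  set A' : Subgroup (G ⧸ N) := A.map (Subgroup.subtype _) with hA'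
  have hcardA : Nat.card A' = Nat.card A :=
    Subgroup.card_map_of_injective (Subgroup.subtype_injective _)
  have hA'S : A' ≤ (S : Subgroup G).map π := by
    rintro _ ⟨a, -, rfl⟩
    exact a.2.1
  have hA'T : A' ≤ (T : Subgroup G).map π := by
    rintro _ ⟨a, -, rfl⟩
    exact a.2.2
  have hA'c : ∀ a ∈ A', ∀ b ∈ A', a * b = b * a := by
    rintro _ ⟨a, ha, rfl⟩ _ ⟨b, hb, rfl⟩
    have := hAc.is_comm.comm ⟨a, ha⟩ ⟨b, hb⟩
    have h2 : a * b = b * a := congrArg Subtype.val this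
    exact congrArg Subtype.val h2
  have hA'e : ∀ a ∈ A', a ^ 2 = 1 := by
    rintro _ ⟨a, ha, rfl⟩
    exact congrArg Subtype.val (hAe a ha)
  set W : Subgroup G := A'.comap π with hW
  have hc1 : Nat.card ↥((S : Subgroup G) ⊓ W) = Nat.card A' := card_inf N hN S A' hA'S
  have hc2 : Nat.card ↥((T : Subgroup G) ⊓ W) = Nat.card A' := card_inf N hN T A' hA'T
  have hcW : Nat.card W = Nat.card N * Nat.card A' := by
    have := Cfsg.Agent.Lib.Helper60Core.card_comap_of_surjective hπ A'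
    rwa [QuotientGroup.ker_mk'] at this
  have hidx : ∀ P : Sylow 2 G, Nat.card ↥((P : Subgroup G) ⊓ W) = Nat.card A' →
      ¬ 2 ∣ (((P : Subgroup G) ⊓ W).subgroupOf W).index := by
    intro P hP h2
    have h3 := Cfsg.Agent.Lib.Helper60Core.card_mul_relIndex
      (inf_le_right : (P : Subgroup G) ⊓ W ≤ W)
    rw [hP, hcW, mul_comm] at h3
    have hpos : 0 < Nat.card A' := Nat.card_pos
    have h4 : ((P : Subgroup G) ⊓ W).relIndex W = Nat.card N := Nat.eq_of_mul_eq_mul_right hpos h3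
    have h5 : 2 ∣ Nat.card N := by rw [← h4]; exact h2
    have h6 := Nat.Coprime.eq_one_of_dvd hN.symm h5
    omega
  have hp : ∀ P : Sylow 2 G, IsPGroup 2 ↥(((P : Subgroup G) ⊓ W).subgroupOf W) := by
    intro P
    exact (P.2.to_le inf_le_left).comap_subtype
  obtain ⟨w, hw⟩ := MulAction.exists_smul_eq ↥W ((hp S).toSylow (hidx S hc1))
    ((hp T).toSylow (hidx T hc2))
  have hconj : ∀ x ∈ (S : Subgroup G) ⊓ W, (w : G) * x * (w : G)⁻¹ ∈ (T : Subgroup G) := by
    intro x hx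
    have h1 : (⟨x, hx.2⟩ : ↥W) ∈ (((hp S).toSylow (hidx S hc1) : Sylow 2 ↥W) : Subgroup ↥W) := by
      change (⟨x, hx.2⟩ : ↥W) ∈ ((S : Subgroup G) ⊓ W).subgroupOf W
      rw [Subgroup.mem_subgroupOf]
      exact hx
    have h2 := Subgroup.smul_mem_pointwise_smul _ (MulAut.conj w) _ h1
    have h3 : MulAut.conj w • (((hp S).toSylow (hidx S hc1) : Sylow 2 ↥W) : Subgroup ↥W)
        = (((hp T).toSylow (hidx T hc2) : Sylow 2 ↥W) : Subgroup ↥W) := by
      rw [← hw]; rfl
    rw [h3] at h2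
    have h4 : MulAut.conj w • (⟨x, hx.2⟩ : ↥W) ∈ ((T : Subgroup G) ⊓ W).subgroupOf W := h2
    rw [Subgroup.mem_subgroupOf] at h4
    exact h4.1
  have hwA : π (w : G) ∈ A' := w.2
  set T₁ : Sylow 2 G := (w : G)⁻¹ • T with hT₁
  have hmemT₁ : ∀ y : G, y ∈ (T₁ : Subgroup G) ↔ (w : G) * y * (w : G)⁻¹ ∈ (T : Subgroup G) := by
    intro y
    rw [hT₁, Sylow.coe_subgroup_smul, Subgroup.mem_pointwise_smul_iff_inv_smul_mem]
    simp [MulAut.smul_def]
  have hST : S ≠ T₁ := by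
    intro h
    apply hne
    have hle : (S : Subgroup G).map π ≤ (T : Subgroup G).map π := by
      rintro _ ⟨y, hy, rfl⟩
      have hy' : y ∈ (T₁ : Subgroup G) := by rw [← h]; exact hy
      rw [hmemT₁] at hy'
      have h1 : π ((w : G) * y * (w : G)⁻¹) ∈ (T : Subgroup G).map π := ⟨_, hy', rfl⟩
      have h2 : π (w : G) ∈ (T : Subgroup G).map π := hA'T hwA
      have h3 : π y = (π (w : G))⁻¹ * π ((w : G) * y * (w : G)⁻¹) * π (w : G) := by
        rw [map_mul, map_mul, map_inv]; group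
      rw [h3]
      exact Subgroup.mul_mem _ (Subgroup.mul_mem _ (Subgroup.inv_mem _ h2) h1) h2
    apply Sylow.ext
    exact ((S.mapSurjective hπ).3 (T.mapSurjective hπ).2 hle).symm
  have hle : (S : Subgroup G) ⊓ W ≤ (S : Subgroup G) ⊓ (T₁ : Subgroup G) := by
    intro x hx
    exact ⟨hx.1, (hmemT₁ x).2 (hconj x hx)⟩
  have hfin := hI S T₁ hST (((S : Subgroup G) ⊓ W).subgroupOf ((S : Subgroup G) ⊓ (T₁ : Subgroup G)))
    ⟨⟨by
      rintro ⟨x, hx⟩ ⟨y, hy⟩
      rw [Subgroup.mem_subgroupOf] at hx hy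
      apply Subtype.ext
      apply Subtype.ext
      change (x : G) * (y : G) = (y : G) * (x : G)
      have h1 : π ((x : G) * (y : G) * ((y : G) * (x : G))⁻¹) = 1 := by
        rw [map_mul, map_inv, map_mul, map_mul, hA'c _ hx.2 _ hy.2, mul_inv_cancel]
      have h2 := inj_on N hN S (S.1.mul_mem (S.1.mul_mem hx.1 hy.1)
        (S.1.inv_mem (S.1.mul_mem hy.1 hx.1))) h1
      exact mul_inv_eq_one.1 h2⟩⟩
    (by
      intro x hx
      rw [Subgroup.mem_subgroupOf] at hx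
      apply Subtype.ext
      change (x : G) ^ 2 = 1
      apply inj_on N hN S (S.1.pow_mem hx.1 2)
      rw [map_pow]
      exact hA'e _ hx.2)
  rw [Nat.card_congr (Subgroup.subgroupOfEquivOfLe hle).toEquiv, hc1, hcardA] at hfin
  exact hfin

end Cfsg.Agent.Lib.H78RiInh
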