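import Mathlib
import Cfsg.Prelude.Def_CaseTheorems
import Cfsg.Prelude.Def_OddOrderLocal
import Cfsg.Agent.S0016

set_option autoImplicit false

/-! PROJECT 3304 = RI (row S3304, 3u), piece `Meta` (est. 40m).
SKETCH.  `Cfsg.Agent.S0016.result 2 hX hu` : `X` is cyclic or `≃* QuaternionGroup (2 ^ n)`.  Cyclic: `N := ⊤` (`IsCyclic ↥⊤` via `Subgroup.topEquiv`, the quotient by `⊤` is trivial hence cyclic), or `N := ⊥`.
Quaternion: take `N := (zpowers (QuaternionGroup.a 1)).comap e.toMonoidHom`; `zpowers (a 1)` has index 2 in `QuaternionGroup m` (`m = 2 ^ n ≠ 0`: card `4 m`, `QuaternionGroup.orderOf_a_one : orderOf (a 1) = 2 * m`),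
so `N` has index 2, is normal (`Subgroup.normal_of_index_eq_two`) and the quotient has order 2, prime, hence cyclic (`isCyclic_of_prime_card`); `N ≃* zpowers (a 1)` is cyclic.
(Shortcut: `Cfsg.Agent.Lib.H78SdMeta.metacyclic_of_le (T Q : Subgroup G) (hQT : Q ≤ T) (c) (hcT : c ∈ T) (hc : 2 * orderOf c = Nat.card T) : IsMetacyclic ↥Q ∧ _` with `T = Q = ⊤`, `c = e.symm (a 1)`, then transport along `Subgroup.topEquiv`.) -/

namespace Cfsg.Agent.Lib.H78RiMeta

theorem metacyclic_of_uniq {X : Type*} [Group X] [Finite X] (hX : IsPGroup 2 X)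
    (hu : ∀ H K : Subgroup X, Nat.card H = 2 → Nat.card K = 2 → H = K) : Cfsg.IsMetacyclic X := by
  have : Fact (Nat.Prime 2) := ⟨Nat.prime_two⟩
  have key : ∀ c : X, 2 * orderOf c = Nat.card X → Cfsg.IsMetacyclic X := by
    intro c hc
    have hidx : (Subgroup.zpowers c).index = 2 := by
      have h1 := (Subgroup.zpowers c).card_mul_index
      rw [Nat.card_zpowers, ← hc] at h1
      have hpos : 0 < orderOf c := orderOf_pos c
      have h2 : orderOf c * (Subgroup.zpowers c).index = orderOf c * 2 := by rw [h1]; ring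
      exact Nat.eq_of_mul_eq_mul_left hpos h2
    have hn : (Subgroup.zpowers c).Normal := Subgroup.normal_of_index_eq_two hidx
    refine ⟨Subgroup.zpowers c, hn, inferInstance, ?_⟩
    have h3 : Nat.card (X ⧸ Subgroup.zpowers c) = 2 := hidx
    exact isCyclic_of_prime_card h3
  rcases Cfsg.Agent.S0016.result 2 hX hu with hc | ⟨_, n, ⟨e⟩⟩
  · refine ⟨⊥, inferInstance, inferInstance, ?_⟩
    exact isCyclic_of_surjective (QuotientGroup.mk' (⊥ : Subgroup X)) (QuotientGroup.mk'_surjective _)
  · apply key (e.symm (QuaternionGroup.a 1))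
    have : NeZero (2 ^ n) := ⟨by positivity⟩
    rw [MulEquiv.orderOf_eq e.symm, QuaternionGroup.orderOf_a_one,
      Nat.card_congr e.toEquiv, Nat.card_eq_fintype_card, QuaternionGroup.card]
    ring

end Cfsg.Agent.Lib.H78RiMeta
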