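import Mathlib
import Cfsg.Prelude.Def_CaseTheorems
import Cfsg.Agent.Lib.Helper39Core
import Cfsg.Agent.Lib.Helper3OddRank
import Cfsg.Agent.Lib.Helper91ES2

set_option autoImplicit false

/-! PROJECT 3304 = RI (row S3304, 3u), piece `Rank`. -/

namespace Cfsg.Agent.Lib.H78RiRank

theorem rank_pCore {G : Type*} [Group G] [Finite G]
    (hI : ∀ S T : Sylow 2 G, S ≠ T → Cfsg.PRankLE 2 1 ↥((S : Subgroup G) ⊓ (T : Subgroup G)))
    (hnc : ¬ ∃ P : Sylow 2 G, (P : Subgroup G).Normal) : Cfsg.PRankLE 2 1 ↥(Cfsg.pCore 2 G) := by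
  haveI : Fact (Nat.Prime 2) := ⟨Nat.prime_two⟩
  obtain ⟨P⟩ : Nonempty (Sylow 2 G) := inferInstance
  obtain ⟨g, hg⟩ : ∃ g : G, g • P ≠ P := by
    by_contra hcon
    push Not at hcon
    apply hnc
    refine ⟨P, ?_⟩
    rw [← Subgroup.normalizer_eq_top_iff, eq_top_iff]
    intro g _
    exact Sylow.smul_eq_iff_mem_normalizer.1 (hcon g)
  have hle : Cfsg.pCore 2 G ≤ ((g • P : Sylow 2 G) : Subgroup G) ⊓ (P : Subgroup G) :=
    le_inf (Cfsg.Agent.Lib.Helper39Core.pCore_le_sylow _)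
      (Cfsg.Agent.Lib.Helper39Core.pCore_le_sylow _)
  have h1 := Cfsg.Agent.Lib.Helper3OddRank.rank_subgroup
    ((Cfsg.pCore 2 G).subgroupOf (((g • P : Sylow 2 G) : Subgroup G) ⊓ (P : Subgroup G)))
    (hI (g • P) P hg)
  exact Cfsg.Agent.Lib.Helper91ES2.prankLE_of_equiv (Subgroup.subgroupOfEquivOfLe hle).symm h1

end Cfsg.Agent.Lib.H78RiRank
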