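import Mathlib
import Cfsg.Agent.S3742
import Cfsg.Agent.Lib.Helper60Core

set_option autoImplicit false

/-! PROJECT 3304 = RI (row S3304, 3u), piece `S4` (est. 40m).
SKETCH.  `f := MulAut.conjNormal : G →* MulAut ↥Q` has kernel `centralizer Q = center G` (`Cfsg.Agent.Lib.Helper60Core.ker_conjNormal`).  `MulAut ↥Q ≃* MulAut (QuaternionGroup 2)` (`MulAut.congr e`)
`≃* Equiv.Perm (Fin 4)` (`Cfsg.Agent.S3742.result`).  So we get `F : G →* Equiv.Perm (Fin 4)` with kernel `center G`; `QuotientGroup.kerLift F` is injective, `G ⧸ ker F` has `48 / 2 = 24 = 4!` elements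
(`Subgroup.card_eq_card_quotient_mul_card_subgroup`, `Fintype.card_perm`), so it is bijective (`Nat.bijective_iff_injective_and_card`); `MulEquiv.ofBijective`; `QuotientGroup.quotientMulEquivOfEq` to replace `ker F` by `center G`. -/

namespace Cfsg.Agent.Lib.H78RiS4

theorem quot_s4 {G : Type*} [Group G] [Finite G] (h48 : Nat.card G = 48) (Q : Subgroup G)
    (hQn : Q.Normal) (e : Q ≃* QuaternionGroup 2)
    (h2 : Nat.card (Subgroup.center G) = 2)
    (hC : Subgroup.centralizer (Q : Set G) = Subgroup.center G) :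
    Nonempty (G ⧸ Subgroup.center G ≃* Equiv.Perm (Fin 4)) := by
  obtain ⟨ψ⟩ := Cfsg.Agent.S3742.result
  have := hQn
  let F : G →* Equiv.Perm (Fin 4) :=
    (ψ.toMonoidHom.comp (MulAut.congr e).toMonoidHom).comp (MulAut.conjNormal : G →* MulAut Q)
  have hker : F.ker = Subgroup.center G := by
    rw [← hC, ← Cfsg.Agent.Lib.Helper60Core.ker_conjNormal Q]
    ext g
    rw [MonoidHom.mem_ker, MonoidHom.mem_ker]
    show ψ ((MulAut.congr e) (MulAut.conjNormal g)) = 1 ↔ _
    rw [map_eq_one_iff ψ ψ.injective, map_eq_one_iff (MulAut.congr e) (MulAut.congr e).injective]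
  have hinj : Function.Injective (QuotientGroup.kerLift F) := QuotientGroup.kerLift_injective F
  have hcard : Nat.card (G ⧸ F.ker) = Nat.card (Equiv.Perm (Fin 4)) := by
    have h1 := Subgroup.card_eq_card_quotient_mul_card_subgroup F.ker
    rw [hker, h48, h2] at h1
    rw [hker, Nat.card_eq_fintype_card (α := Equiv.Perm (Fin 4)), Fintype.card_perm]
    simp only [Fintype.card_fin, Nat.factorial]
    omega
  have hbij : Function.Bijective (QuotientGroup.kerLift F) :=
    (Nat.bijective_iff_injective_and_card _).2 ⟨hinj, hcard⟩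
  exact ⟨(QuotientGroup.quotientMulEquivOfEq hker.symm).trans (MulEquiv.ofBijective _ hbij)⟩

end Cfsg.Agent.Lib.H78RiS4
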