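import Mathlib

set_option autoImplicit false

/-! PROJECT 3304 = RI (row S3304, 3u), piece `Syl` (est. 20m).  PURE MATHLIB.
SKETCH.  `Q` is a 2-group (`IsPGroup.of_card (n := 3)`) whose index 3 is not divisible by 2: `IsPGroup.toSylow hQ (by rw [h3]; decide)` is a Sylow 2-subgroup with carrier `Q` (`IsPGroup.coe_toSylow`). -/

namespace Cfsg.Agent.Lib.H78RiSyl

theorem two_closed {G : Type*} [Group G] [Finite G] (Q : Subgroup G) (hQn : Q.Normal)
    (h8 : Nat.card Q = 8) (h3 : Q.index = 3) : ∃ P : Sylow 2 G, (P : Subgroup G).Normal := by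
  have : Fact (Nat.Prime 2) := ⟨Nat.prime_two⟩
  have hQ : IsPGroup 2 Q := IsPGroup.of_card (n := 3) (by rw [h8]; norm_num)
  refine ⟨IsPGroup.toSylow hQ (by rw [h3]; decide), ?_⟩
  exact hQn

end Cfsg.Agent.Lib.H78RiSyl
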