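import Mathlib
import Cfsg.Prelude.Def_Characters
import Cfsg.Agent.Lib.Helper19Cliff

set_option autoImplicit false

/-! PROJECT 79 = RO (row S4581): real characters of odd degree of solvable groups.
Vocabulary.  Everything happens inside ONE finite ambient group `Γ`: all groups are `↥X` for
subgroups `X` of `Γ`; linear characters are *ambient functions* `Γ → ℂ` that are multiplicative
on the relevant subgroup (`IsLin`), so that restriction costs nothing; quotients `X/L` are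
replaced by the condition `KerGe X L β` (`L` is in the kernel of `β`). -/

namespace Cfsg.Agent.Lib.H79RODefs

open Cfsg
open scoped Classical ComplexConjugate

variable {Γ : Type*} [Group Γ]

/-- `ν` restricted to `X` is a linear character. -/
def IsLin (X : Subgroup Γ) (ν : Γ → ℂ) : Prop :=
  ν 1 = 1 ∧ ∀ a ∈ X, ∀ b ∈ X, ν (a * b) = ν a * ν b

/-- `ν` is trivial on `L`. -/
def Triv (L : Subgroup Γ) (ν : Γ → ℂ) : Prop := ∀ a ∈ L, ν a = 1

/-- `ν` has 2-power order on `X`. -/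
def TwoPow (X : Subgroup Γ) (ν : Γ → ℂ) : Prop := ∃ k : ℕ, ∀ a ∈ X, ν a ^ 2 ^ k = 1

/-- `P` is a Sylow 2-subgroup of `X`. -/
def IsSyl2 (P X : Subgroup Γ) : Prop := P ≤ X ∧ IsPGroup 2 P ∧ Odd (P.relIndex X)

/-- `N_X(PL)`: the preimage in `X` of the normalizer of the Sylow 2-subgroup `PL/L` of `X/L`. -/
def NN (X P L : Subgroup Γ) : Subgroup Γ :=
  X ⊓ Subgroup.normalizer ((P ⊔ L : Subgroup Γ) : Set Γ)

/-- `L ≤ ker β`. -/
def KerGe (X L : Subgroup Γ) (β : ↥X → ℂ) : Prop := ∀ g : ↥X, (g : Γ) ∈ L → β g = β 1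

/-- twisted reality: `conj β = ν β`. -/
def Tw (X : Subgroup Γ) (ν : Γ → ℂ) (β : ↥X → ℂ) : Prop :=
  ∀ g : ↥X, conj (β g) = ν g * β g

/-- irreducible characters of `X` of odd degree, with `L` in the kernel and `conj β = ν β`. -/
def SS (X L : Subgroup Γ) (ν : Γ → ℂ) : Set (IrrCharacter ↥X) :=
  {β | Odd (charDegree (β : ↥X → ℂ)) ∧ Tw X ν (β : ↥X → ℂ) ∧ KerGe X L (β : ↥X → ℂ)}

/-- `β` restricted to `M` is a multiple of `lam`. -/
def Hmg (X M : Subgroup Γ) (lam : Γ → ℂ) (β : ↥X → ℂ) : Prop :=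
  ∀ g : ↥X, (g : Γ) ∈ M → β g = β 1 * lam g

/-- `lam` (on `M`) is invariant under conjugation by `P`. -/
def Inv (P M : Subgroup Γ) (lam : Γ → ℂ) : Prop := ∀ p ∈ P, ∀ m ∈ M, lam (p * m * p⁻¹) = lam m

/-- stabilizer of `lam` (on `M`) in `X`. -/
def stab (X M : Subgroup Γ) (lam : Γ → ℂ) : Subgroup Γ where
  carrier := {x | x ∈ X ∧ x ∈ Subgroup.normalizer (M : Set Γ) ∧ ∀ m ∈ M, lam (x * m * x⁻¹) = lam m}
  one_mem' := ⟨X.one_mem, Subgroup.one_mem _, fun m _ => by simp⟩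
  mul_mem' := by
    rintro a b ⟨ha, ha', ha''⟩ ⟨hb, hb', hb''⟩
    refine ⟨X.mul_mem ha hb, Subgroup.mul_mem _ ha' hb', fun m hm => ?_⟩
    have h1 : b * m * b⁻¹ ∈ M := (Subgroup.mem_normalizer_iff.mp hb' m).mp hm
    have h2 := ha'' _ h1
    rw [hb'' m hm] at h2
    rw [← h2]
    congr 1
    group
  inv_mem' := by
    rintro a ⟨ha, ha', ha''⟩
    refine ⟨X.inv_mem ha, Subgroup.inv_mem _ ha', fun m hm => ?_⟩
    have h1 : a⁻¹ * m * a⁻¹⁻¹ ∈ M :=
      (Subgroup.mem_normalizer_iff.mp (Subgroup.inv_mem _ ha') m).mp hm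
    have h2 := ha'' _ h1
    rw [← h2]
    congr 1
    group

theorem mem_stab {X M : Subgroup Γ} {lam : Γ → ℂ} {x : Γ} :
    x ∈ stab X M lam ↔
      x ∈ X ∧ x ∈ Subgroup.normalizer (M : Set Γ) ∧ ∀ m ∈ M, lam (x * m * x⁻¹) = lam m := Iff.rfl

/-- an honest linear character of `M` as an ambient function (0 outside `M`). -/
noncomputable def amb {M : Subgroup Γ} (lam : ↥M →* ℂˣ) : Γ → ℂ :=
  fun g => if h : g ∈ M then ((lam ⟨g, h⟩ : ℂˣ) : ℂ) else 0

theorem amb_apply {M : Subgroup Γ} (lam : ↥M →* ℂˣ) (m : ↥M) : amb lam (m : Γ) = (lam m : ℂˣ) := by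
  unfold amb
  rw [dif_pos m.2]

theorem isLin_amb {M : Subgroup Γ} (lam : ↥M →* ℂˣ) : IsLin M (amb lam) := by
  refine ⟨?_, fun a ha b hb => ?_⟩
  · have := amb_apply lam 1
    simpa using this
  · have h1 := amb_apply lam (⟨a, ha⟩ * ⟨b, hb⟩)
    have h2 := amb_apply lam ⟨a, ha⟩
    have h3 := amb_apply lam ⟨b, hb⟩
    simp only [map_mul, Units.val_mul] at h1
    rw [← h2, ← h3] at h1
    exact h1

/-- `M/L` is a normal elementary abelian `q`-section of `X`. -/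
structure Sec (X L M : Subgroup Γ) (q : ℕ) : Prop where
  prime : q.Prime
  le : L ≤ M
  leX : M ≤ X
  normL : X ≤ Subgroup.normalizer (L : Set Γ)
  norm : X ≤ Subgroup.normalizer (M : Set Γ)
  comm : ∀ a ∈ M, ∀ b ∈ M, a * b * a⁻¹ * b⁻¹ ∈ L
  pow : ∀ a ∈ M, a ^ q ∈ L

/-- standing configuration. -/
structure Cfg (X L P : Subgroup Γ) : Prop where
  solv : Group.IsSolvable ↥X
  le : L ≤ X
  norm : X ≤ Subgroup.normalizer (L : Set Γ)
  syl : IsSyl2 P X

/-- `PL/L` is self-normalizing in `X/L`. -/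
def SN (X P L : Subgroup Γ) : Prop := NN X P L ≤ P ⊔ L

/-- the abelianization of `PL/L` is elementary abelian. -/
def EA (P L : Subgroup Γ) : Prop := ∀ g ∈ P ⊔ L, g ^ 2 ∈ ⁅P ⊔ L, P ⊔ L⁆ ⊔ L

/-- every odd-degree irreducible character of `X/L` is real. -/
def RealAll (X L : Subgroup Γ) : Prop :=
  ∀ β : IrrCharacter ↥X, Odd (charDegree (β : ↥X → ℂ)) → KerGe X L (β : ↥X → ℂ) →
    ∀ g : ↥X, conj ((β : ↥X → ℂ) g) = (β : ↥X → ℂ) g

/-- conjugation action of `X` on a subgroup `M` that it normalizes (for the hom-style libraries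
`Helper19Cliff`, ...: use `ι = Subgroup.inclusion`, `c = cjM h`). -/
def cjM {X M : Subgroup Γ} (h : X ≤ Subgroup.normalizer (M : Set Γ)) : ↥X →* MulAut ↥M where
  toFun x :=
    { toFun := fun m => ⟨(x : Γ) * m * (x : Γ)⁻¹, (Subgroup.mem_normalizer_iff.mp (h x.2) m).mp m.2⟩
      invFun := fun m => ⟨(x : Γ)⁻¹ * m * (x : Γ),
        (Subgroup.mem_normalizer_iff.mp (h x.2) _).mpr (by
          have : (x : Γ) * ((x : Γ)⁻¹ * m * (x : Γ)) * (x : Γ)⁻¹ = m := by group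
          rw [this]; exact m.2)⟩
      left_inv := fun m => by apply Subtype.ext; simp only; group
      right_inv := fun m => by apply Subtype.ext; simp only; group
      map_mul' := fun a b => by apply Subtype.ext; simp only [Subgroup.coe_mul]; group }
  map_one' := by
    ext m; simp
  map_mul' := fun a b => by
    ext m; simp only [Subgroup.coe_mul, MulAut.mul_apply, MulEquiv.coe_mk, Equiv.coe_fn_mk]; group

theorem cjM_coe {X M : Subgroup Γ} (h : X ≤ Subgroup.normalizer (M : Set Γ)) (x : ↥X) (m : ↥M) :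
    ((cjM h x m : ↥M) : Γ) = (x : Γ) * m * (x : Γ)⁻¹ := rfl

theorem cjM_inclusion {X M : Subgroup Γ} (h : X ≤ Subgroup.normalizer (M : Set Γ)) (hMX : M ≤ X)
    (x : ↥X) (m : ↥M) :
    Subgroup.inclusion hMX (cjM h x m) = x * Subgroup.inclusion hMX m * x⁻¹ := by
  apply Subtype.ext
  rfl

variable [Fintype Γ]

/-- `lam` (a linear character of `M ≤ X`) is a constituent of `β` restricted to `M`. -/
def Over (X M : Subgroup Γ) (lam : Γ → ℂ) (β : ↥X → ℂ) : Prop :=
  (∑ g : ↥X, if (g : Γ) ∈ M then β g * conj (lam g) else 0) ≠ 0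

theorem over_iff {X M : Subgroup Γ} (hMX : M ≤ X) [Fintype ↥M] (lam : Γ → ℂ) (β : ↥X → ℂ) :
    Over X M lam β ↔
      classInner (fun m : ↥M => β (Subgroup.inclusion hMX m)) (fun m : ↥M => lam m) ≠ 0 := by
  have hsum : (∑ g : ↥X, if (g : Γ) ∈ M then β g * conj (lam g) else 0) =
      ∑ m : ↥M, β (Subgroup.inclusion hMX m) * conj (lam m) := by
    rw [← Finset.sum_filter]
    symm
    refine Finset.sum_bij (fun m _ => Subgroup.inclusion hMX m) ?_ ?_ ?_ ?_
    · intro m _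
      simp only [Finset.mem_filter, Finset.mem_univ, true_and]
      exact m.2
    · intro a _ b _ hab
      exact Subgroup.inclusion_injective hMX hab
    · intro g hg
      simp only [Finset.mem_filter, Finset.mem_univ, true_and] at hg
      exact ⟨⟨g, hg⟩, Finset.mem_univ _, Subtype.ext rfl⟩
    · intro m _
      rfl
  unfold Over classInner
  rw [hsum]
  have hc : ((Nat.card ↥M : ℂ))⁻¹ ≠ 0 := by
    apply inv_ne_zero
    exact_mod_cast Nat.card_pos.ne'
  constructor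
  · intro h
    exact mul_ne_zero hc h
  · intro h
    exact right_ne_zero_of_mul h

/-- induction from `W` to `X` (`= Helper19Cliff.ind` along the inclusion). -/
noncomputable def indA {W X : Subgroup Γ} (h : W ≤ X) (ψ : ↥W → ℂ) : ↥X → ℂ :=
  Cfsg.Agent.Lib.Helper19Cliff.ind (Subgroup.inclusion h) ψ

/-- the surjectivity statement used for part 2. -/
def EE (X L P : Subgroup Γ) : Prop :=
  ∀ κ : Γ → ℂ, IsLin (P ⊔ L) κ → Triv L κ →
    ∃ β : IrrCharacter ↥X, Odd (charDegree (β : ↥X → ℂ)) ∧ KerGe X L (β : ↥X → ℂ) ∧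
      Over X (P ⊔ L) κ (β : ↥X → ℂ) ∧
      ∀ κ' : Γ → ℂ, IsLin (P ⊔ L) κ' → Over X (P ⊔ L) κ' (β : ↥X → ℂ) → ∀ g ∈ P ⊔ L, κ' g = κ g

end Cfsg.Agent.Lib.H79RODefs
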