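import Mathlib
import Cfsg.Agent.Lib.H79RODefs

set_option autoImplicit false

namespace Cfsg.Agent.Lib.H79ROBasic

open Cfsg Cfsg.Agent.Lib.H79RODefs
open scoped Classical ComplexConjugate

variable {Γ : Type*} [Group Γ]

theorem isLin_mono {X Y : Subgroup Γ} {ν : Γ → ℂ} (h : IsLin X ν) (hYX : Y ≤ X) : IsLin Y ν :=
  ⟨h.1, fun a ha b hb => h.2 a (hYX ha) b (hYX hb)⟩

theorem twoPow_mono {X Y : Subgroup Γ} {ν : Γ → ℂ} (h : TwoPow X ν) (hYX : Y ≤ X) : TwoPow Y ν := by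
  obtain ⟨k, hk⟩ := h
  exact ⟨k, fun a ha => hk a (hYX ha)⟩

theorem triv_mono {X Y : Subgroup Γ} {ν : Γ → ℂ} (h : Triv X ν) (hYX : Y ≤ X) : Triv Y ν :=
  fun a ha => h a (hYX ha)

theorem isLin_inv_mul {X : Subgroup Γ} {ν : Γ → ℂ} (h : IsLin X ν) {a : Γ} (ha : a ∈ X) :
    ν a * ν a⁻¹ = 1 := by
  rw [← h.2 a ha a⁻¹ (X.inv_mem ha), mul_inv_cancel, h.1]

theorem isLin_conj_eq {X : Subgroup Γ} {ν : Γ → ℂ} (h : IsLin X ν) {a m : Γ} (ha : a ∈ X)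
    (hm : m ∈ X) : ν (a * m * a⁻¹) = ν m := by
  rw [h.2 _ (X.mul_mem ha hm) _ (X.inv_mem ha), h.2 a ha m hm, mul_comm (ν a), mul_assoc,
    isLin_inv_mul h ha, mul_one]

theorem stab_le (X M : Subgroup Γ) (lam : Γ → ℂ) : stab X M lam ≤ X := fun _ hx => hx.1

theorem stab_le_normalizer (X M : Subgroup Γ) (lam : Γ → ℂ) :
    stab X M lam ≤ Subgroup.normalizer (M : Set Γ) := fun _ hx => hx.2.1

theorem inv_stab (X M : Subgroup Γ) (lam : Γ → ℂ) : Inv (stab X M lam) M lam :=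
  fun _ hp m hm => hp.2.2 m hm

theorem le_stab_self {X M : Subgroup Γ} {lam : Γ → ℂ} (hl : IsLin M lam) (hMX : M ≤ X) :
    M ≤ stab X M lam :=
  fun _ hx => ⟨hMX hx, Subgroup.le_normalizer hx, fun _ hm => isLin_conj_eq hl hx hm⟩

theorem le_stab_of_inv {X M P : Subgroup Γ} {lam : Γ → ℂ} (hPX : P ≤ X)
    (hn : X ≤ Subgroup.normalizer (M : Set Γ)) (hi : Inv P M lam) : P ≤ stab X M lam :=
  fun x hx => ⟨hPX hx, hn (hPX hx), fun m hm => hi x hx m hm⟩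

theorem stab_nn {X L M P : Subgroup Γ} (lam : Γ → ℂ) (h : P ⊔ M = P ⊔ L) :
    stab (NN X P L) M lam = NN (stab X M lam) P M := by
  ext x
  simp only [mem_stab, NN, Subgroup.mem_inf, h]
  tauto

theorem sq_of_sec {X L M : Subgroup Γ} {lam : Γ → ℂ} (hs : Sec X L M 2) (hl : IsLin M lam)
    (hL : Triv L lam) : ∀ m ∈ M, lam m ^ 2 = 1 := by
  intro m hm
  rw [pow_two, ← hl.2 m hm m hm, ← pow_two]
  exact hL _ (hs.pow m hm)

theorem sup_le_nn {X L P : Subgroup Γ} (hPX : P ≤ X) (hLX : L ≤ X) : P ⊔ L ≤ NN X P L :=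
  le_inf (sup_le hPX hLX) Subgroup.le_normalizer

theorem nn_le (X P L : Subgroup Γ) : NN X P L ≤ X := inf_le_left

theorem normalizer_le_nn {X L P : Subgroup Γ} (hn : X ≤ Subgroup.normalizer (L : Set Γ)) :
    X ⊓ Subgroup.normalizer (P : Set Γ) ≤ NN X P L := by
  intro x hx
  refine ⟨hx.1, ?_⟩
  have h1 : x ∈ Subgroup.normalizer (P : Set Γ) := hx.2
  have h2 : x ∈ Subgroup.normalizer (L : Set Γ) := hn hx.1
  have key : ∀ y : Γ, y ∈ Subgroup.normalizer (P : Set Γ) → y ∈ Subgroup.normalizer (L : Set Γ) →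
      ∀ g ∈ P ⊔ L, y * g * y⁻¹ ∈ P ⊔ L := by
    intro y hy1 hy2 g hg
    have : (P ⊔ L) ≤ (P ⊔ L).comap (MulAut.conj y).toMonoidHom := by
      apply sup_le
      · intro p hp
        exact Subgroup.mem_sup_left ((Subgroup.mem_normalizer_iff.mp hy1 p).mp hp)
      · intro p hp
        exact Subgroup.mem_sup_right ((Subgroup.mem_normalizer_iff.mp hy2 p).mp hp)
    exact this hg
  show x ∈ Subgroup.normalizer ((P ⊔ L : Subgroup Γ) : Set Γ)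
  rw [Subgroup.mem_normalizer_iff]
  intro g
  constructor
  · exact key x h1 h2 g
  · intro hg
    have := key x⁻¹ (Subgroup.inv_mem _ h1) (Subgroup.inv_mem _ h2) _ hg
    have h3 : x⁻¹ * (x * g * x⁻¹) * x⁻¹⁻¹ = g := by group
    rwa [h3] at this

theorem sec_mono {X U L M : Subgroup Γ} {q : ℕ} (hs : Sec X L M q) (hUX : U ≤ X) (hMU : M ≤ U) :
    Sec U L M q :=
  ⟨hs.prime, hs.le, hMU, hUX.trans hs.normL, hUX.trans hs.norm, hs.comm, hs.pow⟩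

theorem sec_inf {X U L M : Subgroup Γ} {q : ℕ} (hs : Sec X L M q) (hUX : U ≤ X) (hLU : L ≤ U) :
    Sec U L (U ⊓ M) q := by
  refine ⟨hs.prime, le_inf hLU hs.le, inf_le_left, hUX.trans hs.normL, ?_,
    fun a ha b hb => hs.comm a ha.2 b hb.2, fun a ha => hs.pow a ha.2⟩
  intro u hu
  rw [Subgroup.mem_normalizer_iff]
  intro g
  have h1 := Subgroup.mem_normalizer_iff.mp (hs.norm (hUX hu)) g
  constructor
  · intro hg
    exact ⟨U.mul_mem (U.mul_mem hu hg.1) (U.inv_mem hu), h1.mp hg.2⟩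
  · intro hg
    refine ⟨?_, h1.mpr hg.2⟩
    have := U.mul_mem (U.mul_mem (U.inv_mem hu) hg.1) hu
    have h3 : u⁻¹ * (u * g * u⁻¹) * u = g := by group
    rwa [h3] at this

theorem cfg_up {X L M P : Subgroup Γ} {q : ℕ} (hc : Cfg X L P) (hs : Sec X L M q) : Cfg X M P :=
  ⟨hc.solv, hs.leX, hs.norm, hc.syl⟩

theorem isLin_mul_sq {Y : Subgroup Γ} {ν μ : Γ → ℂ} (hν : IsLin Y ν) (hμ : IsLin Y μ) :
    IsLin Y (fun g => ν g * μ g ^ 2) := by
  refine ⟨by simp [hν.1, hμ.1], fun a ha b hb => ?_⟩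
  simp only [hν.2 a ha b hb, hμ.2 a ha b hb]
  ring

theorem twoPow_mul_sq {Y : Subgroup Γ} {ν μ : Γ → ℂ} (hν : TwoPow Y ν) (hμ : TwoPow Y μ) :
    TwoPow Y (fun g => ν g * μ g ^ 2) := by
  obtain ⟨k, hk⟩ := hν
  obtain ⟨l, hl⟩ := hμ
  refine ⟨k + l, fun a ha => ?_⟩
  simp only
  rw [mul_pow, pow_add, pow_mul, hk a ha, one_pow, one_mul, ← pow_mul, mul_comm 2, pow_mul,
    mul_comm (2 ^ k), pow_mul, hl a ha, one_pow, one_pow]

end Cfsg.Agent.Lib.H79ROBasic
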