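import Mathlib
import Cfsg.Agent.Lib.H79RODefs
import Cfsg.Agent.Lib.H79ROBasic

set_option autoImplicit false

/-! PROJECT 79 = RO (row S4581), piece `Chief` (layer 1). -/

namespace Cfsg.Agent.Lib.H79ROChief

open Cfsg Cfsg.Agent.Lib.H79RODefs Cfsg.Agent.Lib.H79ROBasic
open scoped Classical ComplexConjugate commutatorElement

/-- a nontrivial finite solvable group has a nontrivial normal elementary abelian subgroup. -/
theorem exists_elem_ab (Q : Type*) [Group Q] [Finite Q] [Nontrivial Q] [Group.IsSolvable Q] :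
    ∃ (A : Subgroup Q) (q : ℕ), q.Prime ∧ A.Normal ∧ A ≠ ⊥ ∧ (∀ a ∈ A, ∀ b ∈ A, a * b = b * a) ∧
      ∀ a ∈ A, a ^ q = 1 := by
  obtain ⟨n, hn⟩ := (Group.isSolvable_def Q).mp inferInstance
  have hex : ∃ n, derivedSeries Q n = ⊥ := ⟨n, hn⟩
  set i := Nat.find hex with hi
  have hi1 : derivedSeries Q i = ⊥ := Nat.find_spec hex
  have hi0 : i ≠ 0 := by
    intro h0
    rw [h0, derivedSeries_zero] at hi1
    exact top_ne_bot hi1
  obtain ⟨j, hj⟩ := Nat.exists_eq_succ_of_ne_zero hi0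
  have hjne : derivedSeries Q j ≠ ⊥ := by
    apply Nat.find_min hex
    omega
  set B := derivedSeries Q j with hB
  have hBn : B.Normal := derivedSeries_normal Q j
  have hBc : ⁅B, B⁆ = ⊥ := by
    rw [hj] at hi1
    rw [← hi1]
    rfl
  have hcomm : ∀ a ∈ B, ∀ b ∈ B, a * b = b * a := by
    intro a ha b hb
    have h1 : ⁅a, b⁆ ∈ ⁅B, B⁆ := Subgroup.commutator_mem_commutator ha hb
    rw [hBc, Subgroup.mem_bot] at h1
    exact (commutatorElement_eq_one_iff_mul_comm.mp h1)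
  have hcard : Nat.card B ≠ 1 := by
    intro h1
    exact hjne ((Subgroup.card_eq_one).mp h1)
  obtain ⟨q, hq, hqd⟩ := Nat.exists_prime_and_dvd hcard
  have : Fact q.Prime := ⟨hq⟩
  obtain ⟨x, hx⟩ := exists_prime_orderOf_dvd_card' q hqd
  let A : Subgroup Q :=
    { carrier := {b | b ∈ B ∧ b ^ q = 1}
      one_mem' := ⟨B.one_mem, one_pow _⟩
      mul_mem' := by
        rintro a b ⟨ha, ha'⟩ ⟨hb, hb'⟩
        refine ⟨B.mul_mem ha hb, ?_⟩
        have : Commute a b := hcomm a ha b hb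
        rw [this.mul_pow, ha', hb', one_mul]
      inv_mem' := by
        rintro a ⟨ha, ha'⟩
        exact ⟨B.inv_mem ha, by rw [inv_pow, ha', inv_one]⟩ }
  refine ⟨A, q, hq, ⟨?_⟩, ?_, ?_, ?_⟩
  · rintro a ⟨ha, ha'⟩ g
    exact ⟨hBn.conj_mem a ha g, by rw [conj_pow, ha', mul_one, mul_inv_cancel]⟩
  · intro hbot
    have hxA : (x : Q) ∈ A := by
      refine ⟨x.2, ?_⟩
      have := pow_orderOf_eq_one x
      rw [hx] at this
      exact_mod_cast congrArg Subtype.val this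
    rw [hbot, Subgroup.mem_bot] at hxA
    have hx1 : x = 1 := Subtype.ext hxA
    rw [hx1, orderOf_one] at hx
    exact hq.one_lt.ne hx
  · rintro a ⟨ha, -⟩ b ⟨hb, -⟩
    exact hcomm a ha b hb
  · rintro a ⟨-, ha⟩
    exact ha

variable {Γ : Type*} [Group Γ] [Fintype Γ]

theorem exists_chief {X L : Subgroup Γ} (hs : Group.IsSolvable ↥X) (hL : L ≤ X)
    (hn : X ≤ Subgroup.normalizer (L : Set Γ)) (hne : L ≠ X) :
    ∃ (M : Subgroup Γ) (q : ℕ), Sec X L M q ∧ L ≠ M := by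
  have hN : (L.subgroupOf X).Normal := by
    refine ⟨fun n hn' g => ?_⟩
    rw [Subgroup.mem_subgroupOf] at hn' ⊢
    exact (Subgroup.mem_normalizer_iff.mp (hn g.2) n).mp hn'
  have hnt : Nontrivial (↥X ⧸ L.subgroupOf X) := by
    rw [QuotientGroup.nontrivial_iff]
    intro htop
    apply hne
    apply le_antisymm hL
    exact Subgroup.subgroupOf_eq_top.mp htop
  obtain ⟨A, q, hq, hAn, hAne, hAc, hAp⟩ := exists_elem_ab (↥X ⧸ L.subgroupOf X)
  have hmk1 : ∀ x : ↥X, (QuotientGroup.mk x : ↥X ⧸ L.subgroupOf X) = 1 ↔ (x : Γ) ∈ L := by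
    intro x
    rw [QuotientGroup.eq_one_iff, Subgroup.mem_subgroupOf]
  set M : Subgroup Γ := (A.comap (QuotientGroup.mk' (L.subgroupOf X))).map X.subtype with hM
  have hmem : ∀ g : Γ, g ∈ M ↔ ∃ h : g ∈ X, (QuotientGroup.mk ⟨g, h⟩ : ↥X ⧸ L.subgroupOf X) ∈ A := by
    intro g
    constructor
    · rintro ⟨x, hx, rfl⟩
      exact ⟨x.2, hx⟩
    · rintro ⟨h, hg⟩
      exact ⟨⟨g, h⟩, hg, rfl⟩
  refine ⟨M, q, ⟨hq, ?_, ?_, hn, ?_, ?_, ?_⟩, ?_⟩
  · intro l hl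
    rw [hmem]
    refine ⟨hL hl, ?_⟩
    rw [(hmk1 ⟨l, hL hl⟩).mpr hl]
    exact A.one_mem
  · exact Subgroup.map_subtype_le _
  · have key : ∀ x ∈ X, ∀ g ∈ M, x * g * x⁻¹ ∈ M := by
      intro x hx g hg
      rw [hmem] at hg ⊢
      obtain ⟨h, hg⟩ := hg
      refine ⟨X.mul_mem (X.mul_mem hx h) (X.inv_mem hx), ?_⟩
      have := hAn.conj_mem _ hg (QuotientGroup.mk ⟨x, hx⟩)
      exact this
    intro x hx
    rw [Subgroup.mem_normalizer_iff]
    intro g
    constructor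
    · exact key x hx g
    · intro hg
      have := key x⁻¹ (X.inv_mem hx) _ hg
      have e : x⁻¹ * (x * g * x⁻¹) * x⁻¹⁻¹ = g := by group
      rwa [e] at this
  · intro a ha b hb
    rw [hmem] at ha hb
    obtain ⟨ha, ha'⟩ := ha
    obtain ⟨hb, hb'⟩ := hb
    have h1 := hAc _ ha' _ hb'
    have h2 : (QuotientGroup.mk ((⟨a, ha⟩ : ↥X) * ⟨b, hb⟩ * (⟨a, ha⟩ : ↥X)⁻¹ * (⟨b, hb⟩ : ↥X)⁻¹) :
        ↥X ⧸ L.subgroupOf X) = 1 := by
      rw [QuotientGroup.mk_mul, QuotientGroup.mk_mul, QuotientGroup.mk_mul, QuotientGroup.mk_inv,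
        QuotientGroup.mk_inv, h1]
      group
    exact (hmk1 _).mp h2
  · intro a ha
    rw [hmem] at ha
    obtain ⟨ha, ha'⟩ := ha
    have h1 := hAp _ ha'
    rw [← QuotientGroup.mk_pow] at h1
    exact (hmk1 _).mp h1
  · intro hLM
    apply hAne
    rw [eq_bot_iff]
    intro a ha
    obtain ⟨x, rfl⟩ := QuotientGroup.mk_surjective a
    have hxM : (x : Γ) ∈ M := (hmem _).mpr ⟨x.2, ha⟩
    rw [← hLM] at hxM
    rw [Subgroup.mem_bot]
    exact (hmk1 x).mpr hxM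

end Cfsg.Agent.Lib.H79ROChief
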