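import Mathlib
import Cfsg.Agent.Lib.H79RODefs
import Cfsg.Agent.Lib.H79ROBasic
import Cfsg.Agent.Lib.Helper3PGroup

set_option autoImplicit false

/-! PROJECT 79 = RO (row S4581), piece `EaBot` (layer 1).  Overview: notes/helper79/RO/README.md. -/

namespace Cfsg.Agent.Lib.H79ROEaBot

open Cfsg Cfsg.Agent.Lib.H79RODefs Cfsg.Agent.Lib.H79ROBasic
open scoped Classical ComplexConjugate

variable {Γ : Type*} [Group Γ] [Fintype Γ]

theorem ea_bot {G : Type*} [Group G] [Fintype G] (P : Subgroup G) (hP : IsPGroup 2 P) :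
    EA P ⊥ ↔ commutator ↥P = frattini ↥P := by
  haveI : Fact (Nat.Prime 2) := ⟨Nat.prime_two⟩
  have hEA : EA P ⊥ ↔ ∀ g : P, g ^ 2 ∈ commutator ↥P := by
    unfold EA
    simp only [sup_bot_eq]
    rw [← Subgroup.map_subtype_commutator]
    constructor
    · intro h g
      obtain ⟨y, hy, hyg⟩ := h g g.2
      have : y = g ^ 2 := Subtype.ext hyg
      rwa [← this]
    · intro h g hg
      exact ⟨⟨g, hg⟩ ^ 2, h ⟨g, hg⟩, rfl⟩
  rw [hEA]
  constructor
  · intro h
    exact le_antisymm (Cfsg.Agent.Lib.Helper3PGroup.commutator_le_frattini hP)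
      (Cfsg.Agent.Lib.Helper3PGroup.frattini_le_of_elementary (p := 2) _ le_rfl h)
  · intro h g
    rw [h]
    exact Cfsg.Agent.Lib.Helper3PGroup.pow_mem_frattini hP g

end Cfsg.Agent.Lib.H79ROEaBot
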