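import Mathlib
import Cfsg.Agent.Lib.H79RODefs
import Cfsg.Agent.Lib.H79ROBasic

set_option autoImplicit false

/-! PROJECT 79 = RO (row S4581), piece `EaUp` (layer 1, est. 30m).  Overview: notes/helper79/RO/README.md.
You may import any landed library and any RO piece of a LOWER layer (already imported below).
Keep file name, namespace, theorem names and statements; extra private-style helper lemmas are fine.

SKETCH.  PURE.  g ∈ P ⊔ M is g = p·m (P normalizes M).  g² = p²·(p⁻¹mp)·m ∈ p² M, and p² ∈ ⁅P⊔L,P⊔L⁆ ⊔ L ≤ ⁅P⊔M,P⊔M⁆ ⊔ M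
(`Subgroup.commutator_mono`). -/

namespace Cfsg.Agent.Lib.H79ROEaUp

open Cfsg Cfsg.Agent.Lib.H79RODefs Cfsg.Agent.Lib.H79ROBasic
open scoped Classical ComplexConjugate Pointwise

variable {Γ : Type*} [Group Γ] [Fintype Γ]

theorem ea_up {P L M : Subgroup Γ} (h : EA P L) (hLM : L ≤ M)
    (hn : P ≤ Subgroup.normalizer (M : Set Γ)) : EA P M := by
  intro g hg
  have hle : ⁅P ⊔ L, P ⊔ L⁆ ⊔ L ≤ ⁅P ⊔ M, P ⊔ M⁆ ⊔ M :=
    sup_le_sup (Subgroup.commutator_mono (sup_le_sup le_rfl hLM) (sup_le_sup le_rfl hLM)) hLM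
  have hg' : g ∈ ((P : Set Γ) * (M : Set Γ)) := by
    rw [← Subgroup.coe_mul_of_left_le_normalizer_right P M hn]
    exact hg
  obtain ⟨p, hp, m, hm, rfl⟩ := hg'
  have h1 : p ^ 2 ∈ ⁅P ⊔ M, P ⊔ M⁆ ⊔ M := hle (h p (Subgroup.mem_sup_left hp))
  have h2 : p⁻¹ * m * p ∈ M := by
    have h3 := (Subgroup.mem_normalizer_iff.mp (Subgroup.inv_mem _ (hn hp)) m).mp hm
    rwa [inv_inv] at h3
  have e : (p * m) ^ 2 = p ^ 2 * ((p⁻¹ * m * p) * m) := by
    rw [sq, sq]; group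
  show (p * m) ^ 2 ∈ _
  rw [e]
  exact Subgroup.mul_mem _ h1 (Subgroup.mem_sup_right (M.mul_mem h2 hm))

end Cfsg.Agent.Lib.H79ROEaUp
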