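import Mathlib
import Cfsg.Agent.Lib.H79RODefs
import Cfsg.Agent.Lib.H79ROBasic

set_option autoImplicit false

/-! PROJECT 79 = RO (row S4581), piece `Idx` (layer 1, est. 20m).  Overview: notes/helper79/RO/README.md.
You may import any landed library and any RO piece of a LOWER layer (already imported below).
Keep file name, namespace, theorem names and statements; extra private-style helper lemmas are fine.

SKETCH.  PURE.  relIndex_lt: |Y:M| ≤ |X:M| and |X:L| = |M:L|·|X:M| with |M:L| ≥ 2 (`Subgroup.relIndex_mul_relIndex`, everything finite so ≠ 0;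
|M:L| = 1 would give M ≤ L by `Subgroup.relIndex_eq_one`).  isSyl2_of_le: |X:P| = |U:P|·|X:U| odd (`Nat.odd_mul`).
solv_of_le: `solvable_of_solvable_injective (Subgroup.inclusion_injective hYX)`. -/

namespace Cfsg.Agent.Lib.H79ROIdx

open Cfsg Cfsg.Agent.Lib.H79RODefs Cfsg.Agent.Lib.H79ROBasic
open scoped Classical ComplexConjugate

variable {Γ : Type*} [Group Γ] [Fintype Γ]

theorem relIndex_lt {X Y L M : Subgroup Γ} (hLM : L ≤ M) (hne : L ≠ M) (hMY : M ≤ Y)
    (hYX : Y ≤ X) : M.relIndex Y < L.relIndex X := by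
  have h1 := Subgroup.relIndex_mul_relIndex L M X hLM (hMY.trans hYX)
  have h2 := Subgroup.relIndex_mul_relIndex M Y X hMY hYX
  have ha : L.relIndex M ≠ 1 := by
    intro h
    exact hne (le_antisymm hLM (Subgroup.relIndex_eq_one.1 h))
  have ha0 : L.relIndex M ≠ 0 := Subgroup.index_ne_zero_of_finite
  have hb0 : M.relIndex Y ≠ 0 := Subgroup.index_ne_zero_of_finite
  have hc0 : Y.relIndex X ≠ 0 := Subgroup.index_ne_zero_of_finite
  rw [← h1, ← h2]
  have ha2 : 2 ≤ L.relIndex M := by omega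
  have hc1 : 1 ≤ Y.relIndex X := by omega
  have hb1 : 1 ≤ M.relIndex Y := by omega
  calc M.relIndex Y < 2 * M.relIndex Y := by omega
    _ = 2 * (M.relIndex Y * 1) := by ring
    _ ≤ L.relIndex M * (M.relIndex Y * Y.relIndex X) :=
        Nat.mul_le_mul ha2 (Nat.mul_le_mul le_rfl hc1)

theorem isSyl2_of_le {P U X : Subgroup Γ} (h : IsSyl2 P X) (hPU : P ≤ U) (hUX : U ≤ X) :
    IsSyl2 P U ∧ Odd (U.relIndex X) := by
  obtain ⟨_, h2, h3⟩ := h
  rw [← Subgroup.relIndex_mul_relIndex P U X hPU hUX, Nat.odd_mul] at h3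
  exact ⟨⟨hPU, h2, h3.1⟩, h3.2⟩

theorem solv_of_le {Y X : Subgroup Γ} (hYX : Y ≤ X) (hs : Group.IsSolvable ↥X) :
    Group.IsSolvable ↥Y := by
  exact Group.isSolvable_of_isSolvable_injective (Subgroup.inclusion_injective hYX)

end Cfsg.Agent.Lib.H79ROIdx
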