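import Mathlib
import Cfsg.Agent.Lib.H79RODefs
import Cfsg.Agent.Lib.H79ROBasic

set_option autoImplicit false

/-! PROJECT 79 = RO (row S4581), piece `LeSup` (layer 1).  Overview: notes/helper79/RO/README.md.

`|PM : PL|` divides `|PM : P|` which is odd; and `|PM : PL| = |M : M ⊓ PL|`, which divides `|M : L|`, a power of 2. -/

namespace Cfsg.Agent.Lib.H79ROLeSup

open Cfsg Cfsg.Agent.Lib.H79RODefs Cfsg.Agent.Lib.H79ROBasic
open scoped Classical ComplexConjugate

variable {Γ : Type*} [Group Γ] [Fintype Γ]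

theorem relIndex_sup_left' {A B : Subgroup Γ} (h : B ≤ Subgroup.normalizer (A : Set Γ)) :
    A.relIndex (A ⊔ B) = A.relIndex B := by
  let _ := Subgroup.normal_subgroupOf_of_le_normalizer h
  let _ := Subgroup.normal_subgroupOf_sup_of_le_normalizer h
  have e := QuotientGroup.quotientInfEquivProdNormalizerQuotient B A h
  rw [sup_comm]
  exact (Nat.card_congr e.toEquiv).symm

theorem card_mul_relIndex {H K : Subgroup Γ} (h : H ≤ K) :
    Nat.card H * H.relIndex K = Nat.card K := by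
  have := Subgroup.relIndex_mul_relIndex ⊥ H K bot_le h
  rwa [Subgroup.relIndex_bot_left, Subgroup.relIndex_bot_left] at this

/-- `|MA : A| = |M : M ⊓ A|` if `A` normalizes `M`. -/
theorem relIndex_sup_swap {M A : Subgroup Γ} (h : A ≤ Subgroup.normalizer (M : Set Γ)) :
    A.relIndex (M ⊔ A) = A.relIndex M := by
  have h1 : Nat.card ↥(M ⊔ A : Subgroup Γ) = Nat.card M * M.relIndex A := by
    rw [← card_mul_relIndex (le_sup_left : M ≤ M ⊔ A), relIndex_sup_left' h]
  have h2 : Nat.card ↥(M ⊓ A : Subgroup Γ) * M.relIndex A = Nat.card A := by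
    rw [← Subgroup.inf_relIndex_right M A]
    exact card_mul_relIndex inf_le_right
  have h3 : Nat.card ↥(M ⊓ A : Subgroup Γ) * A.relIndex M = Nat.card M := by
    rw [← Subgroup.inf_relIndex_left M A]
    exact card_mul_relIndex inf_le_left
  have h4 : Nat.card A * A.relIndex (M ⊔ A) = Nat.card ↥(M ⊔ A : Subgroup Γ) :=
    card_mul_relIndex le_sup_right
  have hpos : 0 < Nat.card A := Nat.card_pos
  apply Nat.eq_of_mul_eq_mul_left hpos
  rw [h4, h1, ← h3, ← h2]
  ring

theorem le_sup_of_two {X L M P : Subgroup Γ} (h : Cfg X L P) (hs : Sec X L M 2) : M ≤ P ⊔ L := by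
  set A : Subgroup Γ := P ⊔ L with hA
  have hAX : A ≤ X := sup_le h.syl.1 h.le
  have hPA : P ≤ A := le_sup_left
  have hLA : L ≤ A := le_sup_right
  have hBX : M ⊔ A ≤ X := sup_le hs.leX hAX
  -- the index is odd
  have hodd : Odd (A.relIndex (M ⊔ A)) := by
    have e1 := Subgroup.relIndex_mul_relIndex P A (M ⊔ A) hPA le_sup_right
    have e2 := Subgroup.relIndex_mul_relIndex P (M ⊔ A) X (hPA.trans le_sup_right) hBX
    have o := h.syl.2.2
    rw [← e2, ← e1] at o
    exact (Nat.odd_mul.mp (Nat.odd_mul.mp o).1).2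
  rw [relIndex_sup_swap (hAX.trans hs.norm)] at hodd
  -- the index is a power of two
  have hML : M ≤ Subgroup.normalizer (L : Set Γ) := hs.leX.trans hs.normL
  haveI : (L.subgroupOf M).Normal := Subgroup.normal_subgroupOf_of_le_normalizer hML
  have hp : IsPGroup 2 (↥M ⧸ L.subgroupOf M) := by
    intro g
    obtain ⟨m, rfl⟩ := QuotientGroup.mk_surjective g
    refine ⟨1, ?_⟩
    rw [pow_one, ← QuotientGroup.mk_pow, QuotientGroup.eq_one_iff, Subgroup.mem_subgroupOf]
    exact hs.pow m m.2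
  obtain ⟨n, hn⟩ := IsPGroup.iff_card.mp hp
  have hdvd : A.relIndex M ∣ 2 ^ n := by
    rw [← hn]
    exact Subgroup.relIndex_dvd_of_le_left M hLA
  obtain ⟨k, _, hk⟩ := (Nat.dvd_prime_pow Nat.prime_two).mp hdvd
  have hk0 : k = 0 := by
    by_contra hne
    rw [hk] at hodd
    exact (Nat.not_even_iff_odd.mpr hodd) ((Nat.even_pow.mpr ⟨even_two, hne⟩))
  rw [hk0, pow_zero] at hk
  exact Subgroup.relIndex_eq_one.mp hk

end Cfsg.Agent.Lib.H79ROLeSup
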