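import Mathlib
import Cfsg.Agent.Lib.H79RODefs
import Cfsg.Agent.Lib.H79ROBasic

set_option autoImplicit false

/-! PROJECT 79 = RO (row S4581), piece `NNSup` (layer 1).  Frattini argument. -/

namespace Cfsg.Agent.Lib.H79RONNSup

open Cfsg Cfsg.Agent.Lib.H79RODefs Cfsg.Agent.Lib.H79ROBasic
open scoped Classical ComplexConjugate

variable {Γ : Type*} [Group Γ] [Fintype Γ]

theorem conj_of_syl {K P Q : Subgroup Γ} (hQ : Q ≤ K)
    (hP2 : IsPGroup 2 P) (hQ2 : IsPGroup 2 Q) (hPo : Odd (P.relIndex K))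
    (hQo : Odd (Q.relIndex K)) : ∃ y ∈ K, ∀ g, g ∈ Q → y⁻¹ * g * y ∈ P := by
  have : Fact (Nat.Prime 2) := ⟨Nat.prime_two⟩
  have h1 : ¬ 2 ∣ (P.subgroupOf K).index := by
    intro hd
    exact (Nat.not_even_iff_odd.mpr hPo) (even_iff_two_dvd.mpr hd)
  have h2 : ¬ 2 ∣ (Q.subgroupOf K).index := by
    intro hd
    exact (Nat.not_even_iff_odd.mpr hQo) (even_iff_two_dvd.mpr hd)
  let P' : Sylow 2 K := IsPGroup.toSylow (P := P.subgroupOf K) hP2.comap_subtype h1
  let Q' : Sylow 2 K := IsPGroup.toSylow (P := Q.subgroupOf K) hQ2.comap_subtype h2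
  obtain ⟨y, hy⟩ := MulAction.exists_smul_eq K P' Q'
  refine ⟨y, y.2, fun g hg => ?_⟩
  have hg' : (⟨g, hQ hg⟩ : K) ∈ (Q' : Subgroup K) := by
    show (⟨g, hQ hg⟩ : K) ∈ Q.subgroupOf K
    rw [Subgroup.mem_subgroupOf]
    exact hg
  rw [← hy, Sylow.coe_subgroup_smul, Subgroup.mem_pointwise_smul_iff_inv_smul_mem] at hg'
  have hg2 : ((MulAut.conj y)⁻¹ • (⟨g, hQ hg⟩ : K) : K) ∈ P.subgroupOf K := hg'
  rw [Subgroup.mem_subgroupOf] at hg2
  simpa [MulAut.smul_def, MulAut.conj_apply, ← map_inv] using hg2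

theorem nn_sup {X L M P : Subgroup Γ} (h : Cfg X L P) (hLM : L ≤ M) (hMX : M ≤ X)
    (hn : X ≤ Subgroup.normalizer (M : Set Γ)) : NN X P M = NN X P L ⊔ M := by
  have hPX : P ≤ X := h.syl.1
  apply le_antisymm
  · intro x hx
    have hxX : x ∈ X := hx.1
    have hxN : x ∈ Subgroup.normalizer ((P ⊔ M : Subgroup Γ) : Set Γ) := hx.2
    set K : Subgroup Γ := P ⊔ M with hK
    have hPK : P ≤ K := le_sup_left
    have hKX : K ≤ X := sup_le hPX hMX
    have hodd : Odd (P.relIndex K) := by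
      have h1 := Subgroup.relIndex_mul_relIndex P K X hPK hKX
      have h2 := h.syl.2.2
      rw [← h1] at h2
      exact (Nat.odd_mul.mp h2).1
    set Q : Subgroup Γ := P.map (MulAut.conj x).toMonoidHom with hQ
    have hQK : Q ≤ K := by
      rintro _ ⟨p, hp, rfl⟩
      exact (Subgroup.mem_normalizer_iff.mp hxN p).mp (hPK hp)
    have hQ2 : IsPGroup 2 Q := h.syl.2.1.map _
    have hcard : Nat.card Q = Nat.card P := by
      rw [hQ]
      exact Subgroup.card_map_of_injective (MulAut.conj x).injective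
    have hQo : Odd (Q.relIndex K) := by
      have e1 := Subgroup.relIndex_mul_relIndex ⊥ P K bot_le hPK
      have e2 := Subgroup.relIndex_mul_relIndex ⊥ Q K bot_le hQK
      rw [Subgroup.relIndex_bot_left] at e1 e2
      rw [hcard, ← e1] at e2
      have hpos : 0 < Nat.card P := Nat.card_pos
      have := Nat.eq_of_mul_eq_mul_left hpos e2
      rw [this]
      exact hodd
    obtain ⟨y, hyK, hy⟩ := conj_of_syl hQK h.syl.2.1 hQ2 hodd hQo
    have hz : y⁻¹ * x ∈ X ⊓ Subgroup.normalizer (P : Set Γ) := by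
      refine ⟨X.mul_mem (X.inv_mem (hKX hyK)) hxX, ?_⟩
      show y⁻¹ * x ∈ Subgroup.normalizer (P : Set Γ)
      have hmap : ∀ p ∈ P, (y⁻¹ * x) * p * (y⁻¹ * x)⁻¹ ∈ P := by
        intro p hp
        have := hy (x * p * x⁻¹) ⟨p, hp, rfl⟩
        have e : (y⁻¹ * x) * p * (y⁻¹ * x)⁻¹ = y⁻¹ * (x * p * x⁻¹) * y := by group
        rw [e]
        exact this
      -- finite: injective self-map is onto
      have hle : P.map (MulAut.conj (y⁻¹ * x)).toMonoidHom ≤ P := by
        rintro _ ⟨p, hp, rfl⟩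
        exact hmap p hp
      have heq : P.map (MulAut.conj (y⁻¹ * x)).toMonoidHom = P := by
        apply Subgroup.eq_of_le_of_card_ge hle
        rw [Subgroup.card_map_of_injective (MulAut.conj (y⁻¹ * x)).injective]
      rw [Subgroup.mem_normalizer_iff]
      intro g
      constructor
      · exact hmap g
      · intro hg
        rw [← heq] at hg
        obtain ⟨p, hp, hpe⟩ := hg
        have : p = g := by
          apply (MulAut.conj (y⁻¹ * x)).injective
          exact hpe
        rw [← this]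
        exact hp
    have hz' := normalizer_le_nn (P := P) h.norm hz
    have hy' : y ∈ NN X P L ⊔ M := by
      have : K ≤ NN X P L ⊔ M :=
        sup_le ((le_sup_left.trans (sup_le_nn hPX h.le)).trans le_sup_left) le_sup_right
      exact this hyK
    have e : x = y * (y⁻¹ * x) := by group
    rw [e]
    exact Subgroup.mul_mem _ hy' (Subgroup.mem_sup_left hz')
  · apply sup_le
    · have h1 := normalizer_le_nn (X := X) (L := M) (P := P ⊔ L) hn
      have e : (P ⊔ L) ⊔ M = P ⊔ M := by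
        rw [sup_assoc, sup_eq_right.mpr hLM]
      intro x hx
      have := h1 hx
      unfold NN at this ⊢
      rw [e] at this
      exact this
    · exact le_inf hMX (le_sup_right.trans Subgroup.le_normalizer)

end Cfsg.Agent.Lib.H79RONNSup
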