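import Mathlib
import Cfsg.Agent.Lib.H79RODefs
import Cfsg.Agent.Lib.H79ROBasic

set_option autoImplicit false

/-! PROJECT 79 = RO (row S4581), piece `OverConj` (layer 2).  Overview: notes/helper79/RO/README.md. -/

namespace Cfsg.Agent.Lib.H79ROOverConj

open Cfsg Cfsg.Agent.Lib.H79RODefs Cfsg.Agent.Lib.H79ROBasic
open scoped Classical ComplexConjugate

variable {Γ : Type*} [Group Γ] [Fintype Γ]

theorem over_conj {U M : Subgroup Γ} (hMU : M ≤ U) (hn : U ≤ Subgroup.normalizer (M : Set Γ))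
    (β : IrrCharacter ↥U) {lam lam' : Γ → ℂ} (n : Γ) (hnU : n ∈ U)
    (h : ∀ m ∈ M, lam' m = lam (n * m * n⁻¹)) (ho : Over U M lam (β : ↥U → ℂ)) :
    Over U M lam' (β : ↥U → ℂ) := by
  have hcl : IsClassFunction ↥U (β : ↥U → ℂ) :=
    Cfsg.Agent.Lib.Helper4Char.IsCharacter.isClassFunction
      (Cfsg.Agent.Lib.Helper4Char.IsIrrCharacter.isCharacter β.2)
  unfold Over at ho ⊢
  have key : (∑ g : ↥U, if (g : Γ) ∈ M then (β : ↥U → ℂ) g * conj (lam' g) else 0) =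
      ∑ g : ↥U, if (g : Γ) ∈ M then (β : ↥U → ℂ) g * conj (lam g) else 0 := by
    refine Fintype.sum_equiv (MulAut.conj (⟨n, hnU⟩ : ↥U)).toEquiv _ _ ?_
    intro g
    have hco : (((MulAut.conj (⟨n, hnU⟩ : ↥U)).toEquiv g : ↥U) : Γ) = n * (g : Γ) * n⁻¹ := rfl
    have hmem : (n * (g : Γ) * n⁻¹ ∈ M) ↔ ((g : Γ) ∈ M) :=
      (Subgroup.mem_normalizer_iff.mp (hn hnU) (g : Γ)).symm
    rw [hco]
    by_cases hg : (g : Γ) ∈ M
    · rw [if_pos hg, if_pos (hmem.mpr hg), h _ hg]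
      congr 1
      exact (hcl g ⟨n, hnU⟩).symm
    · rw [if_neg hg, if_neg (fun hh => hg (hmem.mp hh))]
  rw [key]
  exact ho

theorem inv_conj {X L M P : Subgroup Γ} {q : ℕ} (hs : Sec X L M q) (hPX : P ≤ X)
    {lam lam' : Γ → ℂ} (hl : IsLin M lam) (hL : Triv L lam) (hi : Inv P M lam) (n : Γ)
    (hn : n ∈ NN X P L) (h : ∀ m ∈ M, lam' m = lam (n * m * n⁻¹)) :
    Triv L lam' ∧ Inv P M lam' := by
  have hnX : n ∈ X := hn.1
  have hnN : n ∈ Subgroup.normalizer ((P ⊔ L : Subgroup Γ) : Set Γ) := hn.2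
  have hnL : ∀ a, a ∈ L → n * a * n⁻¹ ∈ L := fun a ha =>
    (Subgroup.mem_normalizer_iff.mp (hs.normL hnX) a).mp ha
  have hnM : ∀ a, a ∈ M → n * a * n⁻¹ ∈ M := fun a ha =>
    (Subgroup.mem_normalizer_iff.mp (hs.norm hnX) a).mp ha
  have hstab : P ⊔ L ≤ stab X M lam :=
    sup_le (le_stab_of_inv hPX hs.norm hi) (hs.le.trans (le_stab_self hl hs.leX))
  refine ⟨fun a ha => ?_, fun p hp m hm => ?_⟩
  · rw [h a (hs.le ha)]
    exact hL _ (hnL a ha)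
  · have hpm : p * m * p⁻¹ ∈ M :=
      (Subgroup.mem_normalizer_iff.mp (hs.norm (hPX hp)) m).mp hm
    rw [h _ hpm, h m hm]
    have h1 : n * p * n⁻¹ ∈ P ⊔ L :=
      (Subgroup.mem_normalizer_iff.mp hnN p).mp (Subgroup.mem_sup_left hp)
    have h2 := (hstab h1).2.2 (n * m * n⁻¹) (hnM m hm)
    rw [← h2]
    congr 1
    group

end Cfsg.Agent.Lib.H79ROOverConj
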