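import Mathlib
import Cfsg.Agent.Lib.H79RODefs
import Cfsg.Agent.Lib.H79ROBasic

set_option autoImplicit false

/-! PROJECT 79 = RO (row S4581), piece `Partition` (layer 1, est. 45m).  Overview: notes/helper79/RO/README.md.
You may import any landed library and any RO piece of a LOWER layer (already imported below).
Keep file name, namespace, theorem names and statements; extra private-style helper lemmas are fine.

SKETCH.  PURE COUNTING, no groups.  In ℚ:  |S| = Σ_s Σ_{l, R s l} 1/#{l' | R s l'} = Σ_l Σ_{s, R s l} 1/#{l' | E l l'}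
= Σ_l card{s // R s l} / #{l' | E l l'}   (h2: if R s l then {l' | R s l'} = {l' | E l l'}, nonempty by h1).  Same for S'; conclude by h3. -/

namespace Cfsg.Agent.Lib.H79ROPartition

open Cfsg Cfsg.Agent.Lib.H79RODefs Cfsg.Agent.Lib.H79ROBasic
open scoped Classical ComplexConjugate

variable {Γ : Type*} [Group Γ] [Fintype Γ]

theorem cardq {α : Type*} [Fintype α] (p : α → Prop) :
    (Nat.card {a // p a} : ℚ) = ∑ a, if p a then (1 : ℚ) else 0 := by
  rw [Nat.card_eq_fintype_card, Fintype.card_subtype, Finset.card_filter]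
  push_cast
  rfl

theorem key {S Λ : Type*} [Fintype S] [Fintype Λ] (R : S → Λ → Prop) (E : Λ → Λ → Prop)
    (h1 : ∀ s, ∃ l, R s l) (h2 : ∀ s l l', R s l → (R s l' ↔ E l l')) :
    (Nat.card S : ℚ) = ∑ l, (Nat.card {s // R s l} : ℚ) / (Nat.card {l' // E l l'} : ℚ) := by
  have hs : ∀ s, ∑ l, (if R s l then (1 : ℚ) else 0) / (Nat.card {l' // E l l'} : ℚ) = 1 := by
    intro s
    obtain ⟨l0, hl0⟩ := h1 s
    have hr : ∀ l, R s l → (Nat.card {l' // E l l'} : ℚ) = (Nat.card {l' // R s l'} : ℚ) := by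
      intro l hl
      congr 1
      exact Nat.card_congr (Equiv.subtypeEquivRight (fun l' => (h2 s l l' hl).symm))
    have h3 : ∀ l, (if R s l then (1 : ℚ) else 0) / (Nat.card {l' // E l l'} : ℚ)
        = (if R s l then (1 : ℚ) else 0) / (Nat.card {l' // R s l'} : ℚ) := by
      intro l
      by_cases hl : R s l
      · rw [hr l hl]
      · simp [hl]
    rw [Finset.sum_congr rfl (fun l _ => h3 l), ← Finset.sum_div, ← cardq]
    have : Nonempty {l' // R s l'} := ⟨⟨l0, hl0⟩⟩
    have hpos : (Nat.card {l' // R s l'} : ℚ) ≠ 0 := by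
      exact_mod_cast Nat.card_pos.ne'
    exact div_self hpos
  have h4 : ∀ l, (Nat.card {s // R s l} : ℚ) / (Nat.card {l' // E l l'} : ℚ)
      = ∑ s, (if R s l then (1 : ℚ) else 0) / (Nat.card {l' // E l l'} : ℚ) := by
    intro l
    rw [cardq, Finset.sum_div]
  rw [Finset.sum_congr rfl (fun l _ => h4 l), Finset.sum_comm,
    Finset.sum_congr rfl (fun s _ => hs s)]
  simp

theorem partition {S S' Λ : Type*} [Finite S] [Finite S'] [Finite Λ] (R : S → Λ → Prop)
    (R' : S' → Λ → Prop) (E : Λ → Λ → Prop) (h1 : ∀ s, ∃ l, R s l) (h1' : ∀ s, ∃ l, R' s l)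
    (h2 : ∀ s l l', R s l → (R s l' ↔ E l l')) (h2' : ∀ s l l', R' s l → (R' s l' ↔ E l l'))
    (h3 : ∀ l, Nat.card {s // R s l} = Nat.card {s // R' s l}) : Nat.card S = Nat.card S' := by
  have := Fintype.ofFinite S
  have := Fintype.ofFinite S'
  have := Fintype.ofFinite Λ
  have e1 := key R E h1 h2
  have e2 := key R' E h1' h2'
  have e3 : (Nat.card S : ℚ) = (Nat.card S' : ℚ) := by
    rw [e1, e2]
    apply Finset.sum_congr rfl
    intro l _
    rw [h3 l]
  exact_mod_cast e3

end Cfsg.Agent.Lib.H79ROPartition
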