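import Mathlib
import Cfsg.Agent.Lib.H79RODefs
import Cfsg.Agent.Lib.H79ROBasic
import Cfsg.Agent.Lib.Helper82Linear
import Cfsg.Agent.Lib.Helper19Det
import Cfsg.Agent.Lib.Helper81Base
import Cfsg.Agent.Lib.Helper4Char4

set_option autoImplicit false

/-! PROJECT 79 = RO (row S4581), piece `TLin` (layer 1).  Overview: notes/helper79/RO/README.md.
Toolkit for linear characters given as ambient functions. -/

namespace Cfsg.Agent.Lib.H79ROTLin

open Cfsg Cfsg.Agent.Lib.H79RODefs Cfsg.Agent.Lib.H79ROBasic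
open scoped Classical ComplexConjugate

variable {Γ : Type*} [Group Γ] [Fintype Γ]

theorem exists_hom {X : Subgroup Γ} {ν : Γ → ℂ} (h : IsLin X ν) :
    ∃ f : ↥X →* ℂˣ, ∀ x : ↥X, ((f x : ℂˣ) : ℂ) = ν x := by
  have hne : ∀ x : ↥X, ν x ≠ 0 := by
    intro x hx
    have := isLin_inv_mul h x.2
    rw [hx, zero_mul] at this
    exact zero_ne_one this
  refine ⟨{ toFun := fun x => Units.mk0 (ν x) (hne x)
            map_one' := ?_
            map_mul' := ?_ }, fun x => rfl⟩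
  · apply Units.ext
    simp [h.1]
  · intro a b
    apply Units.ext
    simp [h.2 a a.2 b b.2]

theorem norm_one {X : Subgroup Γ} {ν : Γ → ℂ} (h : IsLin X ν) {a : Γ} (ha : a ∈ X) :
    ν a * conj (ν a) = 1 := by
  obtain ⟨f, hf⟩ := exists_hom h
  have hpow : (ν a) ^ orderOf (⟨a, ha⟩ : ↥X) = 1 := by
    have h1 := hf ⟨a, ha⟩
    simp only at h1
    rw [← h1, ← Units.val_pow_eq_pow_val, ← map_pow, pow_orderOf_eq_one, map_one]
    rfl
  have hn : ‖ν a‖ = 1 :=
    Complex.norm_eq_one_of_pow_eq_one hpow (orderOf_pos (⟨a, ha⟩ : ↥X)).ne'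
  rw [Complex.mul_conj, Complex.normSq_eq_norm_sq, hn]
  simp

theorem isIrr_lin {X : Subgroup Γ} {ν : Γ → ℂ} (h : IsLin X ν) :
    IsIrrCharacter ↥X (fun x : ↥X => ν x) := by
  obtain ⟨f, hf⟩ := exists_hom h
  have := Cfsg.Agent.Lib.Helper82Linear.isIrrCharacter_of_hom f
  have e : (fun g => ((f g : ℂˣ) : ℂ)) = (fun x : ↥X => ν x) := funext hf
  rwa [e] at this

theorem isIrr_mul {X : Subgroup Γ} {ν : Γ → ℂ} (h : IsLin X ν) (β : IrrCharacter ↥X) :
    IsIrrCharacter ↥X (fun x : ↥X => ν x * (β : ↥X → ℂ) x) ∧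
      charDegree (fun x : ↥X => ν x * (β : ↥X → ℂ) x) = charDegree (β : ↥X → ℂ) := by
  obtain ⟨f, hf⟩ := exists_hom h
  constructor
  · have := Cfsg.Agent.Lib.Helper19Det.isIrr_homFun_mul f β.2
    have e : (Cfsg.Agent.Lib.Helper19Lin.homFun f * (β : ↥X → ℂ))
        = (fun x : ↥X => ν x * (β : ↥X → ℂ) x) := by
      funext x
      rw [Pi.mul_apply, ← hf x]
      rfl
    rwa [e] at this
  · unfold charDegree
    simp only [Subgroup.coe_one, h.1, one_mul]

theorem isIrr_conj_mul {X : Subgroup Γ} {ν : Γ → ℂ} (h : IsLin X ν) (β : IrrCharacter ↥X) :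
    IsIrrCharacter ↥X (fun x : ↥X => conj (ν x) * (β : ↥X → ℂ) x) ∧
      charDegree (fun x : ↥X => conj (ν x) * (β : ↥X → ℂ) x) = charDegree (β : ↥X → ℂ) := by
  have h' : IsLin X (fun g => conj (ν g)) := by
    refine ⟨by simp [h.1], fun a ha b hb => ?_⟩
    simp only [h.2 a ha b hb, map_mul]
  exact isIrr_mul h' β

theorem isIrr_conj {X : Subgroup Γ} (β : IrrCharacter ↥X) :
    IsIrrCharacter ↥X (fun x : ↥X => conj ((β : ↥X → ℂ) x)) ∧
      charDegree (fun x : ↥X => conj ((β : ↥X → ℂ) x)) = charDegree (β : ↥X → ℂ) := by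
  constructor
  · exact Cfsg.Agent.Lib.Helper4Char4.IsIrrCharacter.conj β.2
  · unfold charDegree
    simp only [Complex.conj_re]

theorem apply_one_eq {X : Subgroup Γ} (β : IrrCharacter ↥X) :
    (β : ↥X → ℂ) 1 = (charDegree (β : ↥X → ℂ) : ℂ) :=
  (Cfsg.Agent.Lib.Helper81Base.charDegree_eq β).symm

end Cfsg.Agent.Lib.H79ROTLin
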