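import Mathlib
import Cfsg.Agent.Lib.H79RODefs
import Cfsg.Agent.Lib.H79ROBasic
import Cfsg.Agent.Lib.Helper82Linear
import Cfsg.Agent.Lib.H79ROTLin

set_option autoImplicit false

/-! PROJECT 79 = RO (row S4581), piece `Self` (layer 2, est. 30m).  Overview: notes/helper79/RO/README.md.
You may import any landed library and any RO piece of a LOWER layer (already imported below).
Keep file name, namespace, theorem names and statements; extra private-style helper lemmas are fine.

SKETCH.  realAll_self: β g = β 1 for all g and β 1 is a natural number (TLin.apply_one_eq).  ee_self: P ⊔ X = X; take β = `Helper82Linear.irrOne`; κ = 1 on X so the Over-sum is |X| ≠ 0;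
uniqueness: if Σ_{g∈X} conj(κ' g) ≠ 0 then κ' = 1 on X (translate the sum by g₀). -/

namespace Cfsg.Agent.Lib.H79ROSelf

open Cfsg Cfsg.Agent.Lib.H79RODefs Cfsg.Agent.Lib.H79ROBasic
open Cfsg.Agent.Lib.H79ROTLin
open scoped Classical ComplexConjugate

variable {Γ : Type*} [Group Γ] [Fintype Γ]

theorem realAll_self (X : Subgroup Γ) : RealAll X X := by
  intro β _ hker g
  rw [hker g g.2, apply_one_eq β, Complex.conj_natCast]

theorem ee_self {X P : Subgroup Γ} (hPX : P ≤ X) : EE X X P := by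
  have hsup : P ⊔ X = X := sup_eq_right.mpr hPX
  rw [EE, hsup]
  intro κ hκ hκt
  refine ⟨Cfsg.Agent.Lib.Helper82Linear.irrOne ↥X, ?_, ?_, ?_, ?_⟩
  · have h1 := apply_one_eq (Cfsg.Agent.Lib.Helper82Linear.irrOne ↥X)
    have h2 : ((Cfsg.Agent.Lib.Helper82Linear.irrOne ↥X : IrrCharacter ↥X) : ↥X → ℂ) 1 = 1 := rfl
    rw [h2] at h1
    have h3 : charDegree ((Cfsg.Agent.Lib.Helper82Linear.irrOne ↥X : IrrCharacter ↥X) : ↥X → ℂ) = 1 := by
      exact_mod_cast h1.symm
    rw [h3]
    exact odd_one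
  · intro g _
    rfl
  · unfold Over
    have h1 : (∑ g : ↥X, if (g : Γ) ∈ X then
        ((Cfsg.Agent.Lib.Helper82Linear.irrOne ↥X : IrrCharacter ↥X) : ↥X → ℂ) g * conj (κ g) else 0) =
        ∑ g : ↥X, (1 : ℂ) := by
      refine Finset.sum_congr rfl fun g _ => ?_
      rw [if_pos g.2, hκt g g.2, map_one, mul_one]
      rfl
    rw [h1]
    simp only [Finset.sum_const, Finset.card_univ, nsmul_eq_mul, mul_one]
    exact_mod_cast Fintype.card_ne_zero
  · intro κ' hκ' hover g₀ hg₀
    rw [hκt g₀ hg₀]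
    unfold Over at hover
    have h1 : (∑ g : ↥X, if (g : Γ) ∈ X then
        ((Cfsg.Agent.Lib.Helper82Linear.irrOne ↥X : IrrCharacter ↥X) : ↥X → ℂ) g * conj (κ' g) else 0) =
        ∑ g : ↥X, conj (κ' g) := by
      refine Finset.sum_congr rfl fun g _ => ?_
      rw [if_pos g.2]
      show (1 : ℂ) * _ = _
      rw [one_mul]
    rw [h1] at hover
    have h2 : (∑ g : ↥X, conj (κ' g)) = conj (κ' g₀) * ∑ g : ↥X, conj (κ' g) := by
      rw [Finset.mul_sum]
      rw [← Equiv.sum_comp (Equiv.mulLeft (⟨g₀, hg₀⟩ : ↥X)) (fun g : ↥X => conj (κ' g))]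
      refine Finset.sum_congr rfl fun g _ => ?_
      simp only [Equiv.coe_mulLeft, Subgroup.coe_mul]
      rw [hκ'.2 g₀ hg₀ g g.2, map_mul]
    have h3 : conj (κ' g₀) = 1 := by
      have h4 : (conj (κ' g₀) - 1) * ∑ g : ↥X, conj (κ' g) = 0 := by
        rw [sub_mul, one_mul, ← h2, sub_self]
      rcases mul_eq_zero.mp h4 with h5 | h5
      · exact sub_eq_zero.mp h5
      · exact absurd h5 hover
    have h6 := congrArg conj h3
    rwa [Complex.conj_conj, map_one] at h6

end Cfsg.Agent.Lib.H79ROSelf
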