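import Mathlib
import Cfsg.Agent.Lib.H79RODefs
import Cfsg.Agent.Lib.H79ROBasic

set_option autoImplicit false

/-! PROJECT 79 = RO (row S4581), piece `TExInv` (layer 2).  Overview: notes/helper79/RO/README.md.

Take `θ₀ : M → ℂˣ` trivial on `L` with `θ₀(c) ≠ 1` and put `θ(m) = Π_{p ∈ P} θ₀(p m p⁻¹)`. -/

namespace Cfsg.Agent.Lib.H79ROTExInv

open Cfsg Cfsg.Agent.Lib.H79RODefs Cfsg.Agent.Lib.H79ROBasic
open scoped Classical ComplexConjugate

variable {Γ : Type*} [Group Γ] [Fintype Γ]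

/-- separation of an element of `M \ L` by a linear character of `M/L`. -/
theorem exists_sep {X L M : Subgroup Γ} {q : ℕ} (hs : Sec X L M q) (c : Γ) (hcM : c ∈ M)
    (hcL : c ∉ L) : ∃ θ₀ : Γ → ℂ, IsLin M θ₀ ∧ Triv L θ₀ ∧ θ₀ c ≠ 1 := by
  have hML : M ≤ Subgroup.normalizer (L : Set Γ) := hs.leX.trans hs.normL
  haveI : (L.subgroupOf M).Normal := Subgroup.normal_subgroupOf_of_le_normalizer hML
  letI : CommGroup (↥M ⧸ L.subgroupOf M) :=
    { (inferInstance : Group (↥M ⧸ L.subgroupOf M)) with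
      mul_comm := by
        intro a b
        obtain ⟨a, rfl⟩ := QuotientGroup.mk_surjective a
        obtain ⟨b, rfl⟩ := QuotientGroup.mk_surjective b
        rw [← QuotientGroup.mk_mul, ← QuotientGroup.mk_mul, QuotientGroup.eq,
          Subgroup.mem_subgroupOf]
        have := hs.comm _ (M.inv_mem b.2) _ (M.inv_mem a.2)
        simpa [mul_assoc] using this }
  have hne : (QuotientGroup.mk ⟨c, hcM⟩ : ↥M ⧸ L.subgroupOf M) ≠ 1 := by
    intro e
    rw [QuotientGroup.eq_one_iff, Subgroup.mem_subgroupOf] at e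
    exact hcL e
  obtain ⟨φ, hφ⟩ := CommGroup.exists_apply_ne_one_of_hasEnoughRootsOfUnity
    (↥M ⧸ L.subgroupOf M) ℂ hne
  set f : ↥M →* ℂˣ := φ.comp (QuotientGroup.mk' (L.subgroupOf M)) with hf
  refine ⟨amb f, isLin_amb f, ?_, ?_⟩
  · intro a ha
    have h1 := amb_apply f ⟨a, hs.le ha⟩
    have h2 : f ⟨a, hs.le ha⟩ = 1 := by
      rw [hf, MonoidHom.comp_apply]
      have : (QuotientGroup.mk' (L.subgroupOf M)) ⟨a, hs.le ha⟩ = 1 := by
        rw [QuotientGroup.mk'_apply, QuotientGroup.eq_one_iff, Subgroup.mem_subgroupOf]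
        exact ha
      rw [this, map_one]
    rw [h2] at h1
    simpa using h1
  · intro e
    have h1 := amb_apply f ⟨c, hcM⟩
    simp only at h1
    rw [e] at h1
    apply hφ
    have h2 : f ⟨c, hcM⟩ = 1 := by
      apply Units.ext
      rw [← h1]
      rfl
    exact h2

theorem isLin_pow {M : Subgroup Γ} {θ : Γ → ℂ} (h : IsLin M θ) {a : Γ} (ha : a ∈ M) (n : ℕ) :
    θ (a ^ n) = θ a ^ n := by
  induction n with
  | zero => simp [h.1]
  | succ n ih => rw [pow_succ, pow_succ, h.2 _ (M.pow_mem ha n) _ ha, ih]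

theorem exists_inv {X L M P : Subgroup Γ} {q : ℕ} (hc : Cfg X L P) (hs : Sec X L M q)
    (hq : q ≠ 2) (c : Γ) (hcM : c ∈ M) (hcL : c ∉ L) (hcP : ∀ p ∈ P, p * c * p⁻¹ * c⁻¹ ∈ L) :
    ∃ θ : Γ → ℂ, IsLin M θ ∧ Triv L θ ∧ Inv P M θ ∧ θ c ≠ 1 := by
  obtain ⟨θ₀, h0, h0L, h0c⟩ := exists_sep hs c hcM hcL
  have hPX : P ≤ X := hc.syl.1
  have cjMem : ∀ p : ↥P, ∀ m ∈ M, (p : Γ) * m * (p : Γ)⁻¹ ∈ M := fun p m hm =>
    (Subgroup.mem_normalizer_iff.mp (hs.norm (hPX p.2)) m).mp hm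
  have cjL : ∀ p : ↥P, ∀ m ∈ L, (p : Γ) * m * (p : Γ)⁻¹ ∈ L := fun p m hm =>
    (Subgroup.mem_normalizer_iff.mp (hs.normL (hPX p.2)) m).mp hm
  refine ⟨fun g => ∏ p : ↥P, θ₀ ((p : Γ) * g * (p : Γ)⁻¹), ⟨?_, ?_⟩, ?_, ?_, ?_⟩
  · simp [h0.1]
  · intro a ha b hb
    simp only
    rw [← Finset.prod_mul_distrib]
    refine Finset.prod_congr rfl (fun p _ => ?_)
    rw [← h0.2 _ (cjMem p a ha) _ (cjMem p b hb)]
    congr 1
    group
  · intro a ha
    simp only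
    exact Finset.prod_eq_one (fun p _ => h0L _ (cjL p a ha))
  · intro p₀ hp₀ m _
    simp only
    refine Fintype.prod_equiv (Equiv.mulRight (⟨p₀, hp₀⟩ : ↥P)) _ _ (fun p => ?_)
    congr 1
    simp only [Equiv.coe_mulRight, Subgroup.coe_mul, mul_inv_rev]
    group
  · simp only
    have e : ∀ p : ↥P, θ₀ ((p : Γ) * c * (p : Γ)⁻¹) = θ₀ c := by
      intro p
      have h1 := hcP p p.2
      have h2 : (p : Γ) * c * (p : Γ)⁻¹ = ((p : Γ) * c * (p : Γ)⁻¹ * c⁻¹) * c := by group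
      rw [h2, h0.2 _ (hs.le h1) _ hcM, h0L _ h1, one_mul]
    rw [Finset.prod_congr rfl (fun p _ => e p), Finset.prod_const, Finset.card_univ]
    intro h1
    have h2 : θ₀ c ^ q = 1 := by
      rw [← isLin_pow h0 hcM, h0L _ (hs.pow c hcM)]
    obtain ⟨k, hk⟩ := IsPGroup.iff_card.mp hc.syl.2.1
    rw [← Nat.card_eq_fintype_card, hk] at h1
    have hcop : Nat.gcd (2 ^ k) q = 1 := by
      apply Nat.Coprime.pow_left
      exact (Nat.coprime_primes Nat.prime_two hs.prime).mpr (Ne.symm hq)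
    have h3 := pow_gcd_eq_one.mpr ⟨h1, h2⟩
    rw [hcop, pow_one] at h3
    exact h0c h3

end Cfsg.Agent.Lib.H79ROTExInv
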