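import Mathlib
import Cfsg.Agent.Lib.H79RODefs
import Cfsg.Agent.Lib.H79ROBasic
import Cfsg.Agent.Lib.Helper81Base

set_option autoImplicit false

/-! PROJECT 79 = RO (row S4581), piece `TInd` (layer 1).  Overview: notes/helper79/RO/README.md.
Toolkit for induction along inclusions of subgroups of the ambient group. -/

namespace Cfsg.Agent.Lib.H79ROTInd

open Cfsg Cfsg.Agent.Lib.H79RODefs Cfsg.Agent.Lib.H79ROBasic
open scoped Classical ComplexConjugate

variable {Γ : Type*} [Group Γ] [Fintype Γ]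

theorem indA_one {W X : Subgroup Γ} (h : W ≤ X) (ψ : ↥W → ℂ) :
    indA h ψ 1 = (W.relIndex X : ℂ) * ψ 1 := by
  unfold indA
  rw [Cfsg.Agent.Lib.Helper19Cliff.ind_apply]
  have key : ∀ S : ℂ, S = ∑ _x : ↥X, ψ 1 →
      (Nat.card ↥W : ℂ)⁻¹ * S = (W.relIndex X : ℂ) * ψ 1 := by
    intro S hS
    rw [hS, Finset.sum_const, Finset.card_univ, nsmul_eq_mul, ← mul_assoc]
    congr 1
    have h2 : W.relIndex X * Nat.card ↥W = Nat.card ↥X := by
      have h4 := Subgroup.card_mul_index (W.subgroupOf X)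
      rw [Nat.card_congr (Subgroup.subgroupOfEquivOfLe h).toEquiv] at h4
      rw [Subgroup.relIndex, mul_comm]
      exact h4
    have h3 : (Nat.card ↥W : ℂ) ≠ 0 := by exact_mod_cast Nat.card_pos.ne'
    rw [← Nat.card_eq_fintype_card, ← h2]
    push_cast
    field_simp
  apply key
  refine Finset.sum_congr rfl fun x _ => ?_
  rw [Finset.sum_eq_single (1 : ↥W)]
  · simp
  · intro n _ hn
    rw [if_neg]
    intro hc
    apply hn
    rw [mul_one, inv_mul_cancel] at hc
    apply Subgroup.inclusion_injective h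
    rw [hc, map_one]
  · intro hc; exact absurd (Finset.mem_univ _) hc

theorem charDegree_indA {W X : Subgroup Γ} (h : W ≤ X) (ψ : IrrCharacter ↥W)
    (hirr : IsIrrCharacter ↥X (indA h (ψ : ↥W → ℂ))) :
    charDegree (indA h (ψ : ↥W → ℂ)) = W.relIndex X * charDegree (ψ : ↥W → ℂ) := by
  have h1 := Cfsg.Agent.Lib.Helper81Base.charDegree_eq (⟨_, hirr⟩ : IrrCharacter ↥X)
  have h2 := Cfsg.Agent.Lib.Helper81Base.charDegree_eq ψ
  simp only at h1
  rw [indA_one, ← h2] at h1
  exact_mod_cast h1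

theorem indA_conj {W X : Subgroup Γ} (h : W ≤ X) (ψ : ↥W → ℂ) (g : ↥X) :
    conj (indA h ψ g) = indA h (fun w => conj (ψ w)) g := by
  unfold indA
  rw [Cfsg.Agent.Lib.Helper19Cliff.ind_apply, Cfsg.Agent.Lib.Helper19Cliff.ind_apply]
  rw [map_mul, map_inv₀, Complex.conj_natCast, map_sum]
  congr 1
  refine Finset.sum_congr rfl fun x _ => ?_
  rw [map_sum]
  refine Finset.sum_congr rfl fun n _ => ?_
  split_ifs
  · rfl
  · exact map_zero _

theorem indA_mul {W X : Subgroup Γ} {ν : Γ → ℂ} (hν : IsLin X ν) (h : W ≤ X) (ψ : ↥W → ℂ)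
    (g : ↥X) : ν g * indA h ψ g = indA h (fun w : ↥W => ν w * ψ w) g := by
  unfold indA
  have hcl : IsClassFunction ↥X (fun x : ↥X => ν x) := by
    intro a b
    exact isLin_conj_eq hν b.2 a.2
  have := Cfsg.Agent.Lib.Helper19Cliff.ind_mul_res (Subgroup.inclusion h) ψ (fun x : ↥X => ν x) hcl
  have e : (ψ * fun n => (fun x : ↥X => ν x) (Subgroup.inclusion h n))
      = (fun w : ↥W => ν w * ψ w) := by
    funext w
    rw [Pi.mul_apply, mul_comm]
    rfl
  rw [e] at this
  rw [this, Pi.mul_apply, mul_comm]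

theorem frob {W X : Subgroup Γ} (h : W ≤ X) (ψ : ↥W → ℂ) (β : ↥X → ℂ)
    (hβ : IsClassFunction ↥X β) :
    classInner (indA h ψ) β = classInner ψ (fun w => β (Subgroup.inclusion h w)) :=
  Cfsg.Agent.Lib.Helper19Cliff.frobenius (Subgroup.inclusion h) ψ β hβ

end Cfsg.Agent.Lib.H79ROTInd
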