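import Mathlib
import Cfsg.Agent.Lib.H79RODefs
import Cfsg.Agent.Lib.H79ROBasic
import Cfsg.Agent.Lib.H79ROTLin
import Cfsg.Agent.Lib.H79ROTInd

set_option autoImplicit false

/-! PROJECT 79 = RO (row S4581), piece `TExOdd` (layer 2).  Overview: notes/helper79/RO/README.md. -/

namespace Cfsg.Agent.Lib.H79ROTExOdd

open Cfsg Cfsg.Agent.Lib.H79RODefs Cfsg.Agent.Lib.H79ROBasic
open Cfsg.Agent.Lib.H79ROTLin Cfsg.Agent.Lib.H79ROTInd
open Cfsg.Agent.Lib.Helper19Cliff Cfsg.Agent.Lib.Helper4Char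
open scoped Classical ComplexConjugate

variable {Γ : Type*} [Group Γ] [Fintype Γ]

theorem exists_odd_over {W X : Subgroup Γ} {κ : Γ → ℂ} (hWX : W ≤ X) (hodd : Odd (W.relIndex X))
    (hκ : IsLin W κ) :
    ∃ β : IrrCharacter ↥X, Odd (charDegree (β : ↥X → ℂ)) ∧ Over X W κ (β : ↥X → ℂ) := by
  have hirr : IsIrrCharacter ↥W (fun w : ↥W => κ w) := isIrr_lin hκ
  have hchar : IsCharacter ↥X (indA hWX (fun w : ↥W => κ w)) :=
    ind_isCharacter _ (IsIrrCharacter.isCharacter hirr)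
  have hcf : IsClassFunction ↥X (indA hWX (fun w : ↥W => κ w)) := ind_isClassFunction _ _
  have hsum := classFunction_eq_sum _ hcf
  have h1 := congrFun hsum 1
  rw [indA_one] at h1
  simp only [Finset.sum_apply, Pi.smul_apply, smul_eq_mul, OneMemClass.coe_one, hκ.1,
    mul_one] at h1
  have h2 : (W.relIndex X : ℂ) = ((∑ ξ : IrrCharacter ↥X,
      nip (indA hWX (fun w : ↥W => κ w)) (ξ : ↥X → ℂ) * charDegree (ξ : ↥X → ℂ) : ℕ) : ℂ) := by
    rw [h1]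
    push_cast
    refine Finset.sum_congr rfl fun ξ _ => ?_
    rw [nip_spec hchar (IsIrrCharacter.isCharacter ξ.2), apply_one_eq]
  have h3 : W.relIndex X = ∑ ξ : IrrCharacter ↥X,
      nip (indA hWX (fun w : ↥W => κ w)) (ξ : ↥X → ℂ) * charDegree (ξ : ↥X → ℂ) := by
    exact_mod_cast h2
  have h4 : ∃ ξ : IrrCharacter ↥X,
      Odd (nip (indA hWX (fun w : ↥W => κ w)) (ξ : ↥X → ℂ) * charDegree (ξ : ↥X → ℂ)) := by
    by_contra hcon
    push Not at hcon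
    rw [h3] at hodd
    have : Even (∑ ξ : IrrCharacter ↥X,
      nip (indA hWX (fun w : ↥W => κ w)) (ξ : ↥X → ℂ) * charDegree (ξ : ↥X → ℂ)) :=
      Finset.even_sum _ (fun ξ _ => Nat.not_odd_iff_even.mp (hcon ξ))
    exact (Nat.not_odd_iff_even.mpr this) hodd
  obtain ⟨ξ, hξ⟩ := h4
  rw [Nat.odd_mul] at hξ
  refine ⟨ξ, hξ.2, ?_⟩
  rw [over_iff hWX]
  intro h0
  have h5 := frob hWX (fun w : ↥W => κ w) (ξ : ↥X → ℂ) (IsIrrCharacter.isClassFunction ξ.2)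
  rw [← classInner_conj_symm (fun m : ↥W => (ξ : ↥X → ℂ) (Subgroup.inclusion hWX m)), h0, map_zero,
    nip_spec hchar (IsIrrCharacter.isCharacter ξ.2)] at h5
  have h6 : nip (indA hWX (fun w : ↥W => κ w)) (ξ : ↥X → ℂ) = 0 := by exact_mod_cast h5
  rw [h6] at hξ
  exact absurd hξ.1 (by decide)

end Cfsg.Agent.Lib.H79ROTExOdd
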