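import Mathlib
import Cfsg.Agent.Lib.H79RODefs
import Cfsg.Agent.Lib.H79ROBasic

set_option autoImplicit false

/-! PROJECT 79 = RO (row S4581), piece `TExtOdd` (layer 1).  Overview: notes/helper79/RO/README.md. -/

namespace Cfsg.Agent.Lib.H79ROTExtOdd

open Cfsg Cfsg.Agent.Lib.H79RODefs Cfsg.Agent.Lib.H79ROBasic
open scoped Classical ComplexConjugate

variable {Γ : Type*} [Group Γ]

theorem conj_mem_of_norm {P N : Subgroup Γ} (h : P ≤ Subgroup.normalizer (N : Set Γ)) {p n : Γ}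
    (hp : p ∈ P) (hn : n ∈ N) : p * n * p⁻¹ ∈ N :=
  (Subgroup.mem_normalizer_iff.mp (h hp) n).mp hn

theorem conj_mem_of_norm' {P N : Subgroup Γ} (h : P ≤ Subgroup.normalizer (N : Set Γ)) {p n : Γ}
    (hp : p ∈ P) (hn : n ∈ N) : p⁻¹ * n * p ∈ N := by
  have := conj_mem_of_norm h (P.inv_mem hp) hn
  rwa [inv_inv] at this

theorem mem_sup_norm {P N : Subgroup Γ} (h : P ≤ Subgroup.normalizer (N : Set Γ)) {g : Γ}
    (hg : g ∈ P ⊔ N) : ∃ p ∈ P, ∃ n ∈ N, g = p * n := by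
  let K : Subgroup Γ :=
    { carrier := {g | ∃ p ∈ P, ∃ n ∈ N, g = p * n}
      one_mem' := ⟨1, P.one_mem, 1, N.one_mem, by simp⟩
      mul_mem' := by
        rintro _ _ ⟨p, hp, n, hn, rfl⟩ ⟨p', hp', n', hn', rfl⟩
        refine ⟨p * p', P.mul_mem hp hp', (p'⁻¹ * n * p') * n',
          N.mul_mem (conj_mem_of_norm' h hp' hn) hn', by group⟩
      inv_mem' := by
        rintro _ ⟨p, hp, n, hn, rfl⟩
        refine ⟨p⁻¹, P.inv_mem hp, p * n⁻¹ * p⁻¹, conj_mem_of_norm h hp (N.inv_mem hn), by group⟩ }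
  have hK : P ⊔ N ≤ K := by
    apply sup_le
    · intro p hp
      exact ⟨p, hp, 1, N.one_mem, by simp⟩
    · intro n hn
      exact ⟨1, P.one_mem, n, hn, by simp⟩
  exact hK hg

theorem glue {P M : Subgroup Γ} (hn : P ≤ Subgroup.normalizer (M : Set Γ)) (a b : Γ → ℂ)
    (ha : IsLin P a) (hb : IsLin M b) (hi : Inv P M b) (hab : ∀ x ∈ P, x ∈ M → a x = b x) :
    ∃ κ : Γ → ℂ, IsLin (P ⊔ M) κ ∧ ∀ p ∈ P, ∀ m ∈ M, κ (p * m) = a p * b m := by
  let κ : Γ → ℂ := fun g =>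
    if h : ∃ pm : Γ × Γ, pm.1 ∈ P ∧ pm.2 ∈ M ∧ g = pm.1 * pm.2 then
      a (Classical.choose h).1 * b (Classical.choose h).2 else 0
  have key : ∀ p ∈ P, ∀ m ∈ M, κ (p * m) = a p * b m := by
    intro p hp m hm
    have h : ∃ pm : Γ × Γ, pm.1 ∈ P ∧ pm.2 ∈ M ∧ p * m = pm.1 * pm.2 := ⟨(p, m), hp, hm, rfl⟩
    have hκ : κ (p * m) = a (Classical.choose h).1 * b (Classical.choose h).2 := dif_pos h
    obtain ⟨h1, h2, h3⟩ := Classical.choose_spec h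
    rw [hκ]
    set p' := (Classical.choose h).1
    set m' := (Classical.choose h).2
    have ht : p'⁻¹ * p = m' * m⁻¹ := by
      have : p = p' * m' * m⁻¹ := by rw [← h3]; group
      rw [this]; group
    have htP : p'⁻¹ * p ∈ P := P.mul_mem (P.inv_mem h1) hp
    have htM : p'⁻¹ * p ∈ M := by rw [ht]; exact M.mul_mem h2 (M.inv_mem hm)
    have e1 : a p = a p' * a (p'⁻¹ * p) := by
      rw [← ha.2 _ h1 _ htP]; congr 1; group
    have e2 : b m' = b (p'⁻¹ * p) * b m := by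
      rw [← hb.2 _ htM _ hm, ht]; congr 1; group
    rw [e1, e2, hab _ htP htM]
    ring
  refine ⟨κ, ⟨?_, ?_⟩, key⟩
  · have := key 1 P.one_mem 1 M.one_mem
    rw [mul_one, ha.1, hb.1, mul_one] at this
    exact this
  · intro x hx y hy
    obtain ⟨p, hp, m, hm, rfl⟩ := mem_sup_norm hn hx
    obtain ⟨p', hp', m', hm', rfl⟩ := mem_sup_norm hn hy
    have e : p * m * (p' * m') = (p * p') * ((p'⁻¹ * m * p') * m') := by group
    have hc : p'⁻¹ * m * p' ∈ M := conj_mem_of_norm' hn hp' hm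
    rw [e, key _ (P.mul_mem hp hp') _ (M.mul_mem hc hm'), key p hp m hm, key p' hp' m' hm',
      ha.2 p hp p' hp', hb.2 _ hc _ hm']
    have := hi p'⁻¹ (P.inv_mem hp') m hm
    rw [inv_inv] at this
    rw [this]
    ring

theorem inf_le_of_odd {X L M P : Subgroup Γ} {q : ℕ} (hc : Cfg X L P) (hs : Sec X L M q)
    (hq : q ≠ 2) {p : Γ} (hp : p ∈ P) (hpM : p ∈ M) : p ∈ L := by
  obtain ⟨k, hk⟩ := hc.syl.2.1 ⟨p, hp⟩
  have hk' : p ^ 2 ^ k = 1 := by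
    have := congrArg Subtype.val hk
    simpa using this
  have hd : orderOf p ∣ 2 ^ k := orderOf_dvd_of_pow_eq_one hk'
  have hcop : Nat.Coprime q (2 ^ k) := by
    apply Nat.Coprime.pow_right
    exact (Nat.coprime_primes hs.prime Nat.prime_two).mpr hq
  have hcop' : Nat.Coprime q (orderOf p) := Nat.Coprime.coprime_dvd_right hd hcop
  obtain ⟨m, hm⟩ := exists_pow_eq_self_of_coprime hcop'
  rw [← hm]
  exact L.pow_mem (hs.pow p hpM) m

variable [Fintype Γ]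

theorem sup_inf_eq {X L M P : Subgroup Γ} {q : ℕ} (hc : Cfg X L P) (hs : Sec X L M q)
    (hq : q ≠ 2) : (P ⊔ L) ⊓ M = L := by
  apply le_antisymm
  · rintro x ⟨hx1, hx2⟩
    obtain ⟨p, hp, l, hl, rfl⟩ := mem_sup_norm (hc.syl.1.trans hc.norm) hx1
    have hpM : p ∈ M := by
      have := M.mul_mem hx2 (M.inv_mem (hs.le hl))
      rwa [mul_inv_cancel_right] at this
    exact L.mul_mem (inf_le_of_odd hc hs hq hp hpM) hl
  · exact le_inf le_sup_right hs.le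

theorem ext_odd {X L M P : Subgroup Γ} {q : ℕ} {θ : Γ → ℂ} (hc : Cfg X L P) (hs : Sec X L M q)
    (hq : q ≠ 2) (hθ : IsLin M θ) (hL : Triv L θ) (hi : Inv P M θ) :
    ∃ κ : Γ → ℂ, IsLin (P ⊔ M) κ ∧ ∀ m ∈ M, κ m = θ m := by
  obtain ⟨κ, h1, h2⟩ := glue (hc.syl.1.trans hs.norm) (fun _ => 1) θ
    ⟨rfl, fun _ _ _ _ => by simp⟩ hθ hi
    (fun x hx hxM => (hL x (inf_le_of_odd hc hs hq hx hxM)).symm)
  refine ⟨κ, h1, fun m hm => ?_⟩
  have := h2 1 P.one_mem m hm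
  simpa using this

theorem res_lin {X L M P : Subgroup Γ} {q : ℕ} {κ : Γ → ℂ} (hc : Cfg X L P) (hs : Sec X L M q)
    (hq : q ≠ 2) (hκ : IsLin (P ⊔ L) κ) (hL : Triv L κ) :
    ∃ κ' : Γ → ℂ, IsLin (P ⊔ M) κ' ∧ Triv M κ' ∧ ∀ g ∈ P ⊔ L, κ' g = κ g := by
  obtain ⟨κ', h1, h2⟩ := glue (hc.syl.1.trans hs.norm) κ (fun _ => 1)
    (isLin_mono hκ le_sup_left) ⟨rfl, fun _ _ _ _ => by simp⟩ (fun _ _ _ _ => rfl)
    (fun x hx hxM => hL x (inf_le_of_odd hc hs hq hx hxM))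
  refine ⟨κ', h1, fun m hm => ?_, fun g hg => ?_⟩
  · have := h2 1 P.one_mem m hm
    simpa [hκ.1] using this
  · obtain ⟨p, hp, l, hl, rfl⟩ := mem_sup_norm (hc.syl.1.trans hc.norm) hg
    rw [h2 p hp l (hs.le hl), hκ.2 p (Subgroup.mem_sup_left hp) l (Subgroup.mem_sup_right hl),
      hL l hl]

end Cfsg.Agent.Lib.H79ROTExtOdd
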