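import Mathlib
import Cfsg.Agent.Lib.H79RODefs
import Cfsg.Agent.Lib.H79ROBasic
import Cfsg.Agent.Lib.H79ROTLin
import Cfsg.Agent.Lib.Helper81Base

set_option autoImplicit false

/-! PROJECT 79 = RO (row S4581), piece `THmg` (layer 2).  Overview: notes/helper79/RO/README.md. -/

namespace Cfsg.Agent.Lib.H79ROTHmg

open Cfsg Cfsg.Agent.Lib.H79RODefs Cfsg.Agent.Lib.H79ROBasic
open Cfsg.Agent.Lib.H79ROTLin
open scoped Classical ComplexConjugate

variable {Γ : Type*} [Group Γ] [Fintype Γ]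

theorem hmg_of_over {W M : Subgroup Γ} {lam : Γ → ℂ} (hMW : M ≤ W)
    (hn : W ≤ Subgroup.normalizer (M : Set Γ)) (hl : IsLin M lam) (hi : Inv W M lam)
    (ψ : IrrCharacter ↥W) (ho : Over W M lam (ψ : ↥W → ℂ)) : Hmg W M lam (ψ : ↥W → ℂ) := by
  rw [over_iff hMW] at ho
  have h1 := Cfsg.Agent.Lib.Helper19Cliff.clifford_invariant (Subgroup.inclusion hMW)
    (Subgroup.inclusion_injective hMW) (cjM hn) (cjM_inclusion hn hMW) ψ.2 (isIrr_lin hl)
    (fun g n => hi g g.2 n n.2) ho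
  have h2 := congrFun h1 1
  simp only [map_one, Pi.smul_apply, Subgroup.coe_one, hl.1, smul_eq_mul, mul_one] at h2
  intro g hg
  have h3 := congrFun h1 ⟨g, hg⟩
  simp only [Pi.smul_apply, smul_eq_mul] at h3
  rw [← h2] at h3
  have e : Subgroup.inclusion hMW ⟨(g : Γ), hg⟩ = g := Subtype.ext rfl
  rw [e] at h3
  exact h3

theorem over_of_hmg {W M : Subgroup Γ} {lam : Γ → ℂ} (hMW : M ≤ W) (hl : IsLin M lam)
    (ψ : IrrCharacter ↥W) (hh : Hmg W M lam (ψ : ↥W → ℂ)) : Over W M lam (ψ : ↥W → ℂ) := by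
  rw [over_iff hMW]
  unfold classInner
  have h1 : ∀ m : ↥M, (ψ : ↥W → ℂ) (Subgroup.inclusion hMW m) * conj (lam m)
      = (ψ : ↥W → ℂ) 1 := by
    intro m
    rw [hh (Subgroup.inclusion hMW m) m.2, mul_assoc]
    have := norm_one hl m.2
    have e : ((Subgroup.inclusion hMW m : ↥W) : Γ) = m := rfl
    rw [e, this, mul_one]
  simp only [h1]
  rw [Finset.sum_const, Finset.card_univ, nsmul_eq_mul]
  have h3 : (Nat.card ↥M : ℂ) ≠ 0 := by exact_mod_cast Nat.card_pos.ne'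
  have h4 : (Fintype.card ↥M : ℂ) ≠ 0 := by exact_mod_cast Fintype.card_ne_zero
  exact mul_ne_zero (inv_ne_zero h3)
    (mul_ne_zero h4 (Cfsg.Agent.Lib.Helper81Base.irr_one_ne_zero ψ))

theorem kerGe_of_over {X M : Subgroup Γ} {lam : Γ → ℂ} (hMX : M ≤ X)
    (hn : X ≤ Subgroup.normalizer (M : Set Γ)) (hl : IsLin M lam) (ht : Triv M lam)
    (β : IrrCharacter ↥X) (ho : Over X M lam (β : ↥X → ℂ)) : KerGe X M (β : ↥X → ℂ) := by
  have hi : Inv X M lam := by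
    intro p hp m hm
    rw [ht m hm, ht _ ((Subgroup.mem_normalizer_iff.mp (hn hp) m).mp hm)]
  have := hmg_of_over hMX hn hl hi β ho
  intro g hg
  rw [this g hg, ht _ hg, mul_one]

end Cfsg.Agent.Lib.H79ROTHmg
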