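import Mathlib
import Cfsg.Agent.Lib.H79RODefs
import Cfsg.Agent.Lib.H79ROBasic
import Cfsg.Agent.Lib.H79ROTLin

set_option autoImplicit false

/-! PROJECT 79 = RO (row S4581), piece `TOverTw` (layer 2, est. 30m).  Overview: notes/helper79/RO/README.md.
You may import any landed library and any RO piece of a LOWER layer (already imported below).
Keep file name, namespace, theorem names and statements; extra private-style helper lemmas are fine.

SKETCH.  All four are termwise manipulations of the sum defining Over:  (μψ)(g) conj(μ g κ g) = ψ(g) conj(κ g) since μ g conj(μ g) = 1 for g ∈ K ≤ W (TLin.norm_one);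
over_star: the new sum is the complex conjugate of the old one (`map_sum`, `apply_ite`).  over_congr: `Finset.sum_congr`. -/

namespace Cfsg.Agent.Lib.H79ROTOverTw

open Cfsg Cfsg.Agent.Lib.H79RODefs Cfsg.Agent.Lib.H79ROBasic
open Cfsg.Agent.Lib.H79ROTLin
open scoped Classical ComplexConjugate

variable {Γ : Type*} [Group Γ] [Fintype Γ]

theorem over_congr {X K : Subgroup Γ} {κ κ' : Γ → ℂ} (h : ∀ g ∈ K, κ' g = κ g) (β : ↥X → ℂ)
    (ho : Over X K κ β) : Over X K κ' β := by
  unfold Over at ho ⊢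
  convert ho using 1
  refine Finset.sum_congr rfl fun g _ => ?_
  by_cases hg : (g : Γ) ∈ K
  · rw [if_pos hg, if_pos hg, h _ hg]
  · rw [if_neg hg, if_neg hg]

theorem over_twist {W K : Subgroup Γ} {μ κ : Γ → ℂ} (hKW : K ≤ W) (hμ : IsLin W μ) (ψ : ↥W → ℂ)
    (ho : Over W K κ ψ) : Over W K (fun g => μ g * κ g) (fun w : ↥W => μ w * ψ w) := by
  unfold Over at ho ⊢
  convert ho using 1
  refine Finset.sum_congr rfl fun g _ => ?_
  by_cases hg : (g : Γ) ∈ K
  · rw [if_pos hg, if_pos hg, map_mul]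
    have := norm_one hμ (hKW hg)
    calc μ g * ψ g * (conj (μ g) * conj (κ g)) = (μ g * conj (μ g)) * (ψ g * conj (κ g)) := by ring
      _ = ψ g * conj (κ g) := by rw [this, one_mul]
  · rw [if_neg hg, if_neg hg]

theorem over_twist_conj {W K : Subgroup Γ} {μ κ : Γ → ℂ} (hKW : K ≤ W) (hμ : IsLin W μ)
    (ψ : ↥W → ℂ) (ho : Over W K κ ψ) :
    Over W K (fun g => conj (μ g) * κ g) (fun w : ↥W => conj (μ w) * ψ w) := by
  unfold Over at ho ⊢
  convert ho using 1
  refine Finset.sum_congr rfl fun g _ => ?_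
  by_cases hg : (g : Γ) ∈ K
  · rw [if_pos hg, if_pos hg, map_mul, Complex.conj_conj]
    have := norm_one hμ (hKW hg)
    calc conj (μ g) * ψ g * (μ g * conj (κ g)) = (μ g * conj (μ g)) * (ψ g * conj (κ g)) := by ring
      _ = ψ g * conj (κ g) := by rw [this, one_mul]
  · rw [if_neg hg, if_neg hg]

theorem over_star {X K : Subgroup Γ} {κ : Γ → ℂ} (β : ↥X → ℂ) (ho : Over X K κ β) :
    Over X K (fun g => conj (κ g)) (fun x : ↥X => conj (β x)) := by
  unfold Over at ho ⊢
  intro h0
  apply ho
  have h1 := congrArg conj h0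
  rw [map_zero, map_sum] at h1
  have h2 : (∑ g : ↥X, if (g : Γ) ∈ K then β g * conj (κ g) else 0) =
      ∑ g : ↥X, conj (if (g : Γ) ∈ K then conj (β g) * conj (conj (κ g)) else 0) := by
    refine Finset.sum_congr rfl fun g _ => ?_
    by_cases hg : (g : Γ) ∈ K
    · rw [if_pos hg, if_pos hg, map_mul, Complex.conj_conj, Complex.conj_conj]
    · rw [if_neg hg, if_neg hg, map_zero]
  rw [h2]
  exact h1

end Cfsg.Agent.Lib.H79ROTOverTw
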