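import Mathlib
import Cfsg.Agent.Lib.H79RODefs
import Cfsg.Agent.Lib.H79ROBasic

set_option autoImplicit false

/-! PROJECT 79 = RO (row S4581), piece `TSep` (layer 1).  Overview: notes/helper79/RO/README.md. -/

namespace Cfsg.Agent.Lib.H79ROTSep

open Cfsg Cfsg.Agent.Lib.H79RODefs Cfsg.Agent.Lib.H79ROBasic
open scoped Classical ComplexConjugate

variable {Γ : Type*} [Group Γ] [Fintype Γ]

theorem sq_mem_of_real {K L : Subgroup Γ} (hLK : L ≤ K)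
    (hn : K ≤ Subgroup.normalizer (L : Set Γ))
    (h : ∀ κ : Γ → ℂ, IsLin K κ → Triv L κ → ∀ g ∈ K, conj (κ g) = κ g) :
    ∀ g ∈ K, g ^ 2 ∈ ⁅K, K⁆ ⊔ L := by
  intro g hg
  let B : Subgroup (Abelianization ↥K) := (L.subgroupOf K).map Abelianization.of
  let π : ↥K →* (Abelianization ↥K ⧸ B) := (QuotientGroup.mk' B).comp Abelianization.of
  by_cases h1 : π (⟨g, hg⟩ ^ 2) = 1
  · have h2 : Abelianization.of ((⟨g, hg⟩ : ↥K) ^ 2) ∈ B := by
      have : (QuotientGroup.mk' B) (Abelianization.of ((⟨g, hg⟩ : ↥K) ^ 2)) = 1 := h1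
      rwa [QuotientGroup.mk'_apply, QuotientGroup.eq_one_iff] at this
    obtain ⟨l, hl, hl2⟩ := h2
    have h3 : l⁻¹ * (⟨g, hg⟩ : ↥K) ^ 2 ∈ (Abelianization.of (G := ↥K)).ker := by
      rw [MonoidHom.mem_ker, map_mul, map_inv, hl2, inv_mul_cancel]
    rw [Abelianization.ker_of] at h3
    have h4 : ((l⁻¹ * (⟨g, hg⟩ : ↥K) ^ 2 : ↥K) : Γ) ∈ ⁅K, K⁆ := by
      rw [← Subgroup.map_subtype_commutator]
      exact ⟨_, h3, rfl⟩
    have h5 : g ^ 2 = ((l⁻¹ * (⟨g, hg⟩ : ↥K) ^ 2 : ↥K) : Γ) *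
        (((l⁻¹ * (⟨g, hg⟩ : ↥K) ^ 2 : ↥K) : Γ)⁻¹ * (l : Γ) *
          ((l⁻¹ * (⟨g, hg⟩ : ↥K) ^ 2 : ↥K) : Γ)) := by
      simp only [Subgroup.coe_mul, Subgroup.coe_inv, Subgroup.coe_pow]
      group
    rw [h5]
    refine Subgroup.mul_mem _ (Subgroup.mem_sup_left h4) (Subgroup.mem_sup_right ?_)
    have h6 : ((l⁻¹ * (⟨g, hg⟩ : ↥K) ^ 2 : ↥K) : Γ)⁻¹ ∈ Subgroup.normalizer (L : Set Γ) :=
      hn (K.inv_mem (l⁻¹ * (⟨g, hg⟩ : ↥K) ^ 2 : ↥K).2)
    have h7 := (Subgroup.mem_normalizer_iff.mp h6 (l : Γ)).mp hl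
    rwa [inv_inv] at h7
  · exfalso
    obtain ⟨φ, hφ⟩ := CommGroup.exists_apply_ne_one_of_hasEnoughRootsOfUnity
      (Abelianization ↥K ⧸ B) ℂ h1
    let f : ↥K →* ℂˣ := φ.comp π
    have hlin : IsLin K (amb f) := isLin_amb f
    have htriv : Triv L (amb f) := by
      intro a ha
      have h2 := amb_apply f ⟨a, hLK ha⟩
      have h3 : f ⟨a, hLK ha⟩ = 1 := by
        have : π ⟨a, hLK ha⟩ = 1 := by
          show (QuotientGroup.mk' B) (Abelianization.of (⟨a, hLK ha⟩ : ↥K)) = 1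
          rw [QuotientGroup.mk'_apply, QuotientGroup.eq_one_iff]
          exact ⟨⟨a, hLK ha⟩, ha, rfl⟩
        show φ (π ⟨a, hLK ha⟩) = 1
        rw [this, map_one]
      rw [h3] at h2
      simpa using h2
    have hreal := h _ hlin htriv g hg
    have hval : amb f g = ((f ⟨g, hg⟩ : ℂˣ) : ℂ) := amb_apply f ⟨g, hg⟩
    have hpow : (amb f g) ^ (Nat.card ↥K) = 1 := by
      rw [hval, ← Units.val_pow_eq_pow_val, ← map_pow, pow_card_eq_one', map_one, Units.val_one]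
    have hnorm : ‖amb f g‖ = 1 :=
      Complex.norm_eq_one_of_pow_eq_one hpow Nat.card_pos.ne'
    have h8 : amb f g * conj (amb f g) = 1 := by
      rw [Complex.mul_conj, Complex.normSq_eq_norm_sq, hnorm]
      simp
    rw [hreal, hval, ← Units.val_mul, ← map_mul] at h8
    apply hφ
    have h9 : f (⟨g, hg⟩ * ⟨g, hg⟩) = 1 := by
      apply Units.ext
      simpa using h8
    rw [pow_two]
    exact h9

end Cfsg.Agent.Lib.H79ROTSep
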