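import Mathlib
import Cfsg.Agent.Lib.H79RODefs
import Cfsg.Agent.Lib.H79ROBasic

set_option autoImplicit false

/-! PROJECT 79 = RO (row S4581), piece `TSylTriv` (layer 1, est. 45m).  Overview: notes/helper79/RO/README.md.
You may import any landed library and any RO piece of a LOWER layer (already imported below).
Keep file name, namespace, theorem names and statements; extra private-style helper lemmas are fine.

SKETCH.  K = {t ∈ T | ρ t = 1} is a subgroup of T containing P, so |T:K| is odd.  For t ∈ T: t^|T:K| ... simplest elementwise: let n = orderOf t = 2^a·b, b odd.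
t^b is a 2-element of T, so it is T-conjugate to an element of P (Sylow), and ρ is invariant under T-conjugation (Basic.isLin_conj_eq): ρ(t)^b = 1.  Also ρ(t)^(2^k) = 1.  gcd = 1.
Alternative: ρ induces an injective hom T/K → ℂˣ of exponent 2^k, so |T:K| is a power of 2 and odd. -/

namespace Cfsg.Agent.Lib.H79ROTSylTriv

open Cfsg Cfsg.Agent.Lib.H79RODefs Cfsg.Agent.Lib.H79ROBasic
open scoped Classical ComplexConjugate

variable {Γ : Type*} [Group Γ] [Fintype Γ]

theorem triv_of_syl {P T : Subgroup Γ} {ρ : Γ → ℂ} (hP : IsSyl2 P T) (hρ : IsLin T ρ)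
    (h2 : TwoPow T ρ) (ht : Triv P ρ) : Triv T ρ := by
  obtain ⟨hPT, hP2, hodd⟩ := hP
  obtain ⟨k, hk⟩ := h2
  have hne : ∀ x : ↥T, ρ x ≠ 0 := fun x h0 => by
    have := isLin_inv_mul hρ x.2
    rw [h0, zero_mul] at this
    exact zero_ne_one this
  let f : ↥T →* ℂˣ :=
    { toFun := fun x => Units.mk0 (ρ x) (hne x)
      map_one' := by ext; simp [hρ.1]
      map_mul' := fun a b => by ext; simp [hρ.2 a a.2 b b.2] }
  have hf : ∀ x : ↥T, ((f x : ℂˣ) : ℂ) = ρ x := fun x => rfl
  have hPK : P.subgroupOf T ≤ f.ker := fun x hx => by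
    rw [MonoidHom.mem_ker]
    ext
    rw [hf]
    exact ht x (Subgroup.mem_subgroupOf.mp hx)
  have h1 : f.ker.index ∣ (P.subgroupOf T).index := Subgroup.index_dvd_of_le hPK
  have h2 : IsPGroup 2 (↥T ⧸ f.ker) := by
    intro x
    induction x using QuotientGroup.induction_on with
    | H x =>
      refine ⟨k, ?_⟩
      rw [← QuotientGroup.mk_pow, QuotientGroup.eq_one_iff, MonoidHom.mem_ker, map_pow]
      ext
      rw [Units.val_pow_eq_pow_val, hf]
      exact hk x x.2
  haveI : Fact (Nat.Prime 2) := ⟨Nat.prime_two⟩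
  obtain ⟨n, hn⟩ := IsPGroup.iff_card.mp h2
  have h3 : f.ker.index = 2 ^ n := hn
  have h4 : Odd f.ker.index := Odd.of_dvd_nat hodd h1
  have h5 : f.ker.index = 1 := by
    rcases Nat.eq_zero_or_pos n with h0 | h0
    · rw [h3, h0, pow_zero]
    · exfalso
      rw [h3] at h4
      exact (Nat.not_even_iff_odd.mpr h4) (Even.pow_of_ne_zero even_two h0.ne')
  have h6 : f.ker = ⊤ := Subgroup.index_eq_one.mp h5
  intro a ha
  have h7 : (⟨a, ha⟩ : ↥T) ∈ f.ker := h6 ▸ Subgroup.mem_top _
  have h8 := congrArg Units.val (MonoidHom.mem_ker.mp h7)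
  rw [hf] at h8
  exact h8

end Cfsg.Agent.Lib.H79ROTSylTriv
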