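import Mathlib
import Cfsg.Agent.Lib.H79RODefs
import Cfsg.Agent.Lib.H79ROBasic
import Cfsg.Agent.Lib.Helper82Quot

set_option autoImplicit false

/-! PROJECT 79 = RO (row S4581), piece `Top` (layer 2).  Overview: notes/helper79/RO/README.md. -/

namespace Cfsg.Agent.Lib.H79ROTop

open Cfsg Cfsg.Agent.Lib.H79RODefs Cfsg.Agent.Lib.H79ROBasic
open scoped Classical ComplexConjugate

variable {Γ : Type*} [Group Γ] [Fintype Γ]

theorem charDegree_irrCongr_top {G : Type*} [Group G] (χ : IrrCharacter G) :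
    charDegree ((Cfsg.Agent.Lib.Helper82Quot.irrCongr
      (Subgroup.topEquiv (G := G)).symm χ : IrrCharacter ↥(⊤ : Subgroup G)) :
        ↥(⊤ : Subgroup G) → ℂ) = charDegree (χ : G → ℂ) := by
  unfold charDegree
  rw [Cfsg.Agent.Lib.Helper82Quot.irrCongr_apply]
  simp

theorem kerGe_bot {G : Type*} [Group G] (X : Subgroup G) (β : ↥X → ℂ) : KerGe X ⊥ β := by
  intro g hg
  have : g = 1 := Subtype.ext (Subgroup.mem_bot.mp hg)
  rw [this]

theorem top_card {G : Type*} [Group G] [Fintype G] :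
    Nat.card {χ : IrrCharacter G // (∀ g : G, ((χ : G → ℂ) g).im = 0) ∧
        Odd (charDegree (χ : G → ℂ))} =
      Nat.card (SS (⊤ : Subgroup G) ⊥ (fun _ => 1)) := by
  refine Nat.card_congr (Equiv.subtypeEquiv
    (Cfsg.Agent.Lib.Helper82Quot.irrCongr (Subgroup.topEquiv (G := G)).symm) ?_)
  intro χ
  show _ ↔ (Odd (charDegree _) ∧ Tw _ _ _ ∧ KerGe _ _ _)
  rw [charDegree_irrCongr_top]
  constructor
  · rintro ⟨h1, h2⟩
    refine ⟨h2, ?_, kerGe_bot _ _⟩
    intro g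
    rw [one_mul, Cfsg.Agent.Lib.Helper82Quot.irrCongr_apply]
    exact Complex.conj_eq_iff_im.mpr (h1 _)
  · rintro ⟨h1, h2, -⟩
    refine ⟨?_, h1⟩
    intro g
    have := h2 ⟨g, Subgroup.mem_top g⟩
    rw [one_mul, Cfsg.Agent.Lib.Helper82Quot.irrCongr_apply] at this
    exact Complex.conj_eq_iff_im.mp this

theorem realAll_top {G : Type*} [Group G] [Fintype G] :
    RealAll (⊤ : Subgroup G) ⊥ ↔
      ∀ χ : IrrCharacter G, Odd (charDegree (χ : G → ℂ)) → ∀ g : G, ((χ : G → ℂ) g).im = 0 := by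
  constructor
  · intro h χ hχ g
    have := h (Cfsg.Agent.Lib.Helper82Quot.irrCongr (Subgroup.topEquiv (G := G)).symm χ)
      (by rw [charDegree_irrCongr_top]; exact hχ) (kerGe_bot _ _) ⟨g, Subgroup.mem_top g⟩
    rw [Cfsg.Agent.Lib.Helper82Quot.irrCongr_apply] at this
    exact Complex.conj_eq_iff_im.mp this
  · intro h β hβ _ g
    obtain ⟨χ, rfl⟩ :=
      (Cfsg.Agent.Lib.Helper82Quot.irrCongr (Subgroup.topEquiv (G := G)).symm).surjective β
    rw [charDegree_irrCongr_top] at hβ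
    rw [Cfsg.Agent.Lib.Helper82Quot.irrCongr_apply]
    exact Complex.conj_eq_iff_im.mpr (h χ hβ _)

end Cfsg.Agent.Lib.H79ROTop
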