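import Mathlib
import Cfsg.Agent.Lib.H79RODefs
import Cfsg.Agent.Lib.H79ROBasic

set_option autoImplicit false

/-! PROJECT 79 = RO (row S4581), piece `TrivOdd` (layer 2, est. 15m).  Overview: notes/helper79/RO/README.md.
You may import any landed library and any RO piece of a LOWER layer (already imported below).
Keep file name, namespace, theorem names and statements; extra private-style helper lemmas are fine.

SKETCH.  ν(m)^q = ν(m^q) = 1 (m^q ∈ L; powers by induction from IsLin) and ν(m)^(2^k) = 1; q is an odd prime so gcd(q,2^k) = 1 and ν(m) = 1 (`pow_gcd_eq_one`/`Nat.Coprime`). -/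

namespace Cfsg.Agent.Lib.H79ROTrivOdd

open Cfsg Cfsg.Agent.Lib.H79RODefs Cfsg.Agent.Lib.H79ROBasic
open scoped Classical ComplexConjugate

variable {Γ : Type*} [Group Γ] [Fintype Γ]

theorem triv_of_odd {X L M : Subgroup Γ} {q : ℕ} {ν : Γ → ℂ} (hs : Sec X L M q) (hq : q ≠ 2)
    (hν : IsLin X ν) (h2 : TwoPow X ν) (hL : Triv L ν) : Triv M ν := by
  intro m hm
  obtain ⟨k, hk⟩ := h2
  have hmX : m ∈ X := hs.leX hm
  have hpow : ∀ n : ℕ, ν (m ^ n) = ν m ^ n := by
    intro n
    induction n with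
    | zero => simp [hν.1]
    | succ n ih => rw [pow_succ, hν.2 _ (X.pow_mem hmX n) _ hmX, ih, pow_succ]
  have h1 : ν m ^ q = 1 := by rw [← hpow]; exact hL _ (hs.pow m hm)
  have h3 : ν m ^ 2 ^ k = 1 := hk m hmX
  have hcop : Nat.Coprime q (2 ^ k) := by
    apply Nat.Coprime.pow_right
    exact (Nat.coprime_primes hs.prime Nat.prime_two).mpr hq
  have h4 : ν m ^ Nat.gcd q (2 ^ k) = 1 := pow_gcd_eq_one.mpr ⟨h1, h3⟩
  rw [hcop.gcd_eq_one, pow_one] at h4
  exact h4

end Cfsg.Agent.Lib.H79ROTrivOdd
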