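import Mathlib
import Cfsg.Agent.Lib.H79RODefs
import Cfsg.Agent.Lib.H79ROBasic
import Cfsg.Agent.Lib.H79ROTLin

set_option autoImplicit false

/-! PROJECT 79 = RO (row S4581), piece `TwistCard` (layer 2, est. 60m).  Overview: notes/helper79/RO/README.md.
You may import any landed library and any RO piece of a LOWER layer (already imported below).
Keep file name, namespace, theorem names and statements; extra private-style helper lemmas are fine.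

SKETCH.  Bijection ψ ↦ conj(μ)·ψ, inverse ψ' ↦ μ·ψ' (TLin.isIrr_conj_mul, isIrr_mul give irreducibility and the degree; μ conj μ = 1 by norm_one).  ψ' = μ̄ψ: on m ∈ M, ψ'(m) = conj(lam m) ψ(1) lam(m) = ψ(1) = ψ'(1);
conj ψ' = μ ν ψ = ν μ² ψ'.  Conversely ψ = μψ': ψ(m) = lam(m) ψ(1) (Hmg), so L ≤ ker ψ; conj ψ = μ̄ ν μ² ψ' = ν ψ.  `Nat.card_congr` with an explicit Equiv (hsq is not needed). -/

namespace Cfsg.Agent.Lib.H79ROTwistCard

open Cfsg Cfsg.Agent.Lib.H79RODefs Cfsg.Agent.Lib.H79ROBasic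
open Cfsg.Agent.Lib.H79ROTLin
open scoped Classical ComplexConjugate

variable {Γ : Type*} [Group Γ] [Fintype Γ]

theorem twist_card {W L M : Subgroup Γ} {ν lam μ : Γ → ℂ} (hLM : L ≤ M) (hMW : M ≤ W)
    (hμ : IsLin W μ) (hμM : ∀ m ∈ M, μ m = lam m) (hL : Triv L lam)
    (hsq : ∀ m ∈ M, lam m ^ 2 = 1) :
    Nat.card {ψ : IrrCharacter ↥W // ψ ∈ SS W L ν ∧ Hmg W M lam (ψ : ↥W → ℂ)} =
      Nat.card (SS W M (fun g => ν g * μ g ^ 2)) := by
  have hn : ∀ x : ↥W, μ x * conj (μ x) = 1 := fun x => norm_one hμ x.2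
  refine Nat.card_congr
    { toFun := fun ψ => ⟨⟨fun x : ↥W => conj (μ x) * (ψ.1 : ↥W → ℂ) x, (isIrr_conj_mul hμ ψ.1).1⟩, ?_⟩
      invFun := fun ψ' => ⟨⟨fun x : ↥W => μ x * (ψ'.1 : ↥W → ℂ) x, (isIrr_mul hμ ψ'.1).1⟩, ?_⟩
      left_inv := ?_
      right_inv := ?_ }
  · obtain ⟨⟨ho, ht, hk⟩, hh⟩ := ψ.2
    refine ⟨?_, ?_, ?_⟩
    · show Odd (charDegree (fun x : ↥W => conj (μ x) * (ψ.1 : ↥W → ℂ) x))
      rw [(isIrr_conj_mul hμ ψ.1).2]
      exact ho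
    · intro g
      show conj (conj (μ g) * (ψ.1 : ↥W → ℂ) g) = (ν g * μ g ^ 2) * (conj (μ g) * (ψ.1 : ↥W → ℂ) g)
      rw [map_mul, Complex.conj_conj, ht g]
      have := hn g
      linear_combination (- ν g * μ g * (ψ.1 : ↥W → ℂ) g) * this
    · intro g hg
      show conj (μ g) * (ψ.1 : ↥W → ℂ) g = conj (μ ((1 : ↥W) : Γ)) * (ψ.1 : ↥W → ℂ) 1
      rw [hh g hg, ← hμM g hg, Subgroup.coe_one, hμ.1, map_one, one_mul]
      have := hn g
      linear_combination ((ψ.1 : ↥W → ℂ) 1) * this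
  · obtain ⟨ho, ht, hk⟩ := ψ'.2
    refine ⟨⟨?_, ?_, ?_⟩, ?_⟩
    · show Odd (charDegree (fun x : ↥W => μ x * (ψ'.1 : ↥W → ℂ) x))
      rw [(isIrr_mul hμ ψ'.1).2]
      exact ho
    · intro g
      show conj (μ g * (ψ'.1 : ↥W → ℂ) g) = ν g * (μ g * (ψ'.1 : ↥W → ℂ) g)
      rw [map_mul, ht g]
      have := hn g
      linear_combination (ν g * μ g * (ψ'.1 : ↥W → ℂ) g) * this
    · intro g hg
      show μ g * (ψ'.1 : ↥W → ℂ) g = μ ((1 : ↥W) : Γ) * (ψ'.1 : ↥W → ℂ) 1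
      rw [hk g (hLM hg), hμM g (hLM hg), hL g hg, Subgroup.coe_one, hμ.1]
    · intro g hg
      show μ g * (ψ'.1 : ↥W → ℂ) g = μ ((1 : ↥W) : Γ) * (ψ'.1 : ↥W → ℂ) 1 * lam g
      rw [hk g hg, hμM g hg, Subgroup.coe_one, hμ.1]
      ring
  · intro ψ
    apply Subtype.ext
    apply Subtype.ext
    funext x
    show μ x * (conj (μ x) * (ψ.1 : ↥W → ℂ) x) = (ψ.1 : ↥W → ℂ) x
    have := hn x
    linear_combination ((ψ.1 : ↥W → ℂ) x) * this
  · intro ψ'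
    apply Subtype.ext
    apply Subtype.ext
    funext x
    show conj (μ x) * (μ x * (ψ'.1 : ↥W → ℂ) x) = (ψ'.1 : ↥W → ℂ) x
    have := hn x
    linear_combination ((ψ'.1 : ↥W → ℂ) x) * this

end Cfsg.Agent.Lib.H79ROTwistCard
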