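import Mathlib
import Cfsg.Agent.Lib.H79RODefs
import Cfsg.Agent.Lib.H79ROBasic
import Cfsg.Agent.Lib.H79ROChief
import Cfsg.Agent.Lib.H79ROIdx
import Cfsg.Agent.Lib.H79RONNSup
import Cfsg.Agent.Lib.H79ROLeSup
import Cfsg.Agent.Lib.H79ROEaUp
import Cfsg.Agent.Lib.H79ROPartition
import Cfsg.Agent.Lib.H79ROEaBot
import Cfsg.Agent.Lib.H79ROTLin
import Cfsg.Agent.Lib.H79ROTInd
import Cfsg.Agent.Lib.H79ROTSep
import Cfsg.Agent.Lib.H79ROTExtOdd
import Cfsg.Agent.Lib.H79ROTKer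
import Cfsg.Agent.Lib.H79ROTSylTriv
import Cfsg.Agent.Lib.H79ROTClf
import Cfsg.Agent.Lib.H79ROTHmg
import Cfsg.Agent.Lib.H79ROTTrans
import Cfsg.Agent.Lib.H79ROTExOdd
import Cfsg.Agent.Lib.H79ROTExInv
import Cfsg.Agent.Lib.H79ROTrivOdd
import Cfsg.Agent.Lib.H79ROOverConj
import Cfsg.Agent.Lib.H79ROTop
import Cfsg.Agent.Lib.H79ROSub
import Cfsg.Agent.Lib.H79ROSelf
import Cfsg.Agent.Lib.H79ROTwistCard
import Cfsg.Agent.Lib.H79ROTOverTw
import Cfsg.Agent.Lib.H79ROTFour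

set_option autoImplicit false

/-! PROJECT 79 = RO (row S4581), piece `CliffCard` (layer 3, est. 100m).  Overview: notes/helper79/RO/README.md.
You may import any landed library and any RO piece of a LOWER layer (already imported below).
Keep file name, namespace, theorem names and statements; extra private-style helper lemmas are fine.

SKETCH.  T = stab U M lam ⊇ P (Basic.le_stab_of_inv), so |U:T| is odd (Idx.isSyl2_of_le).  Bijection ψ ↦ indA ψ.  Well defined: TClf.clf_irr (irreducible, over lam); degree |U:T|ψ(1) (TInd.charDegree_indA); Tw: conj(ind ψ) = ind(conj ψ) = ind(νψ) = ν ind ψ (TInd.indA_conj, indA_mul);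
KerGe U L: Over U L lam β by TTrans.over_trans, then THmg.kerGe_of_over with M := L (hnL).  Injective: TClf.clf_inj.  Surjective: TClf.clf_surj gives ψ, Hmg, ind ψ = β; ψ(1) odd; ψ(l) = ψ(1)lam(l) = ψ(1); Tw: conj ψ and νψ are irreducible (TLin), both Hmg over lam (lam real since lam² = 1 and |lam| = 1; ν trivial on M), and
ind(conj ψ) = conj β = νβ = ind(νψ), so they are equal by clf_inj. -/

namespace Cfsg.Agent.Lib.H79ROCliffCard

open Cfsg Cfsg.Agent.Lib.H79RODefs Cfsg.Agent.Lib.H79ROBasic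
open Cfsg.Agent.Lib.H79ROChief Cfsg.Agent.Lib.H79ROIdx Cfsg.Agent.Lib.H79RONNSup Cfsg.Agent.Lib.H79ROLeSup Cfsg.Agent.Lib.H79ROEaUp Cfsg.Agent.Lib.H79ROPartition Cfsg.Agent.Lib.H79ROEaBot Cfsg.Agent.Lib.H79ROTLin Cfsg.Agent.Lib.H79ROTInd Cfsg.Agent.Lib.H79ROTSep Cfsg.Agent.Lib.H79ROTExtOdd Cfsg.Agent.Lib.H79ROTKer Cfsg.Agent.Lib.H79ROTSylTriv Cfsg.Agent.Lib.H79ROTClf Cfsg.Agent.Lib.H79ROTHmg Cfsg.Agent.Lib.H79ROTTrans Cfsg.Agent.Lib.H79ROTExOdd Cfsg.Agent.Lib.H79ROTExInv Cfsg.Agent.Lib.H79ROTrivOdd Cfsg.Agent.Lib.H79ROOverConj Cfsg.Agent.Lib.H79ROTop Cfsg.Agent.Lib.H79ROSub Cfsg.Agent.Lib.H79ROSelf Cfsg.Agent.Lib.H79ROTwistCard Cfsg.Agent.Lib.H79ROTOverTw Cfsg.Agent.Lib.H79ROTFour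
open scoped Classical ComplexConjugate

variable {Γ : Type*} [Group Γ] [Fintype Γ]

theorem real_of_sq {z : ℂ} (h : z ^ 2 = 1) : conj z = z := by
  rw [pow_two] at h
  rcases mul_self_eq_one_iff.1 h with rfl | rfl <;> simp

theorem cliff_card {U L M P : Subgroup Γ} {ν lam : Γ → ℂ} (hLM : L ≤ M) (hMU : M ≤ U)
    (hnL : U ≤ Subgroup.normalizer (L : Set Γ))
    (hn : U ≤ Subgroup.normalizer (M : Set Γ)) (hP : IsSyl2 P U) (hl : IsLin M lam)
    (hL : Triv L lam) (hsq : ∀ m ∈ M, lam m ^ 2 = 1) (hi : Inv P M lam) (hν : IsLin U ν)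
    (hνM : Triv M ν) :
    Nat.card {β : IrrCharacter ↥U // β ∈ SS U L ν ∧ Over U M lam (β : ↥U → ℂ)} =
      Nat.card {ψ : IrrCharacter ↥(stab U M lam) //
        ψ ∈ SS (stab U M lam) L ν ∧ Hmg (stab U M lam) M lam (ψ : ↥(stab U M lam) → ℂ)} := by
  have hPT : P ≤ stab U M lam := le_stab_of_inv hP.1 hn hi
  have hodd : Odd ((stab U M lam).relIndex U) := (isSyl2_of_le hP hPT (stab_le U M lam)).2
  have hνT : IsLin (stab U M lam) ν := isLin_mono hν (stab_le U M lam)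
  symm
  -- the map
  have hwd : ∀ ψ : IrrCharacter ↥(stab U M lam), ψ ∈ SS (stab U M lam) L ν →
      Hmg (stab U M lam) M lam (ψ : ↥(stab U M lam) → ℂ) →
      ∃ hirr : IsIrrCharacter ↥U (indA (stab_le U M lam) (ψ : ↥(stab U M lam) → ℂ)),
        (⟨_, hirr⟩ : IrrCharacter ↥U) ∈ SS U L ν ∧
          Over U M lam (indA (stab_le U M lam) (ψ : ↥(stab U M lam) → ℂ)) := by
    rintro ψ ⟨hd, htw, _⟩ hh
    obtain ⟨hirr, hov⟩ := clf_irr hMU hn hl ψ hh
    refine ⟨hirr, ⟨?_, ?_, ?_⟩, hov⟩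
    · show Odd (charDegree (indA (stab_le U M lam) (ψ : ↥(stab U M lam) → ℂ)))
      rw [charDegree_indA _ ψ hirr]
      exact hodd.mul hd
    · intro g
      show conj (indA (stab_le U M lam) (ψ : ↥(stab U M lam) → ℂ) g)
        = ν g * indA (stab_le U M lam) (ψ : ↥(stab U M lam) → ℂ) g
      rw [indA_conj, indA_mul hν]
      congr 1
      funext w
      exact htw w
    · have ho' := over_trans hLM hMU hl (⟨_, hirr⟩ : IrrCharacter ↥U) hov
      exact kerGe_of_over (hLM.trans hMU) hnL (isLin_mono hl hLM) hL (⟨_, hirr⟩ : IrrCharacter ↥U) ho'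
  refine Nat.card_congr (Equiv.ofBijective
    (fun ψ => ⟨⟨_, (hwd ψ.1 ψ.2.1 ψ.2.2).choose⟩, (hwd ψ.1 ψ.2.1 ψ.2.2).choose_spec⟩) ⟨?_, ?_⟩)
  · rintro ⟨ψ, h1, h2⟩ ⟨ψ', h1', h2'⟩ he
    have he' : indA (stab_le U M lam) (ψ : ↥(stab U M lam) → ℂ)
        = indA (stab_le U M lam) (ψ' : ↥(stab U M lam) → ℂ) :=
      congrArg (fun x => ((x.1 : IrrCharacter ↥U) : ↥U → ℂ)) he
    exact Subtype.ext (clf_inj hMU hn hl ψ ψ' h2 h2' he')
  · rintro ⟨β, ⟨hd, htw, hk⟩, hov⟩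
    obtain ⟨ψ, hh, hind⟩ := clf_surj hMU hn hl β hov
    have hirr : IsIrrCharacter ↥U (indA (stab_le U M lam) (ψ : ↥(stab U M lam) → ℂ)) := by
      rw [hind]; exact β.2
    have hdψ : Odd (charDegree (ψ : ↥(stab U M lam) → ℂ)) := by
      have h1 := charDegree_indA _ ψ hirr
      rw [hind] at h1
      rw [h1] at hd
      exact (Nat.odd_mul.1 hd).2
    have hkψ : KerGe (stab U M lam) L (ψ : ↥(stab U M lam) → ℂ) := by
      intro g hg
      rw [hh g (hLM hg), hL _ hg, mul_one]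
    have htwψ : Tw (stab U M lam) ν (ψ : ↥(stab U M lam) → ℂ) := by
      have e1 : Hmg (stab U M lam) M lam
          ((⟨_, (isIrr_conj ψ).1⟩ : IrrCharacter ↥(stab U M lam)) : ↥(stab U M lam) → ℂ) := by
        intro g hg
        show conj ((ψ : ↥(stab U M lam) → ℂ) g) = conj ((ψ : ↥(stab U M lam) → ℂ) 1) * lam g
        rw [hh g hg, map_mul, real_of_sq (hsq _ hg)]
      have e2 : Hmg (stab U M lam) M lam
          ((⟨_, (isIrr_mul hνT ψ).1⟩ : IrrCharacter ↥(stab U M lam)) : ↥(stab U M lam) → ℂ) := by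
        intro g hg
        show ν g * (ψ : ↥(stab U M lam) → ℂ) g
          = ν ((1 : ↥(stab U M lam)) : Γ) * (ψ : ↥(stab U M lam) → ℂ) 1 * lam g
        rw [hh g hg, hνM _ hg, Subgroup.coe_one, hν.1, mul_assoc]
      have e3 := clf_inj hMU hn hl _ _ e1 e2 (by
        funext g
        show indA (stab_le U M lam) (fun w => conj ((ψ : ↥(stab U M lam) → ℂ) w)) g
          = indA (stab_le U M lam) (fun w : ↥(stab U M lam) => ν w * (ψ : ↥(stab U M lam) → ℂ) w) g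
        rw [← indA_conj, ← indA_mul hν, hind]
        exact htw g)
      intro g
      exact congrFun (congrArg Subtype.val e3) g
    refine ⟨⟨ψ, ⟨hdψ, htwψ, hkψ⟩, hh⟩, ?_⟩
    apply Subtype.ext
    apply Subtype.ext
    exact hind

end Cfsg.Agent.Lib.H79ROCliffCard
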