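import Mathlib
import Cfsg.Agent.Lib.H79RODefs
import Cfsg.Agent.Lib.H79ROBasic

set_option autoImplicit false
set_option linter.unusedSectionVars false

/-! Sylow 2-subgroups in the ambient vocabulary of project 79 (`IsSyl2`). -/

namespace Cfsg.Agent.Lib.Helper30ROSyl

open Cfsg Cfsg.Agent.Lib.H79RODefs Cfsg.Agent.Lib.H79ROBasic

variable {Γ : Type*} [Group Γ] [Finite Γ]

/-- two Sylow 2-subgroups of `X` are conjugate in `X` -/
theorem syl2_conj {P Q X : Subgroup Γ} (hP : IsSyl2 P X) (hQ : IsSyl2 Q X) :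
    ∃ x ∈ X, ∀ g, g ∈ P ↔ x * g * x⁻¹ ∈ Q := by
  have : Fact (Nat.Prime 2) := ⟨Nat.prime_two⟩
  have mk : ∀ R : Subgroup Γ, IsSyl2 R X → ∃ S : Sylow 2 ↥X, (S : Subgroup ↥X) = R.subgroupOf X := by
    intro R hR
    have h1 : IsPGroup 2 (R.subgroupOf X) :=
      hR.2.1.comap_of_injective X.subtype X.subtype_injective
    have h2 : ¬ 2 ∣ (R.subgroupOf X).index := by
      have := hR.2.2
      rw [Subgroup.relIndex] at this
      exact fun h => (Nat.not_even_iff_odd.mpr this) (even_iff_two_dvd.mpr h)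
    exact ⟨h1.toSylow h2, rfl⟩
  obtain ⟨SP, hSP⟩ := mk P hP
  obtain ⟨SQ, hSQ⟩ := mk Q hQ
  obtain ⟨x, hx⟩ := MulAction.exists_smul_eq ↥X SP SQ
  refine ⟨x, x.2, fun g => ?_⟩
  have key : ∀ y : ↥X, y ∈ (SQ : Subgroup ↥X) ↔ x⁻¹ * y * x ∈ (SP : Subgroup ↥X) := by
    intro y
    rw [← hx, Sylow.coe_subgroup_smul, Subgroup.mem_pointwise_smul_iff_inv_smul_mem,
      MulAut.smul_def, ← map_inv, MulAut.conj_apply, inv_inv]
  constructor
  · intro hg
    have hgX : g ∈ X := hP.1 hg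
    have := (key (x * ⟨g, hgX⟩ * x⁻¹)).mpr (by
      have e : x⁻¹ * (x * ⟨g, hgX⟩ * x⁻¹) * x = ⟨g, hgX⟩ := by group
      rw [e, hSP, Subgroup.mem_subgroupOf]
      exact hg)
    rw [hSQ, Subgroup.mem_subgroupOf] at this
    exact this
  · intro hg
    have hX : (x : Γ) * g * (x : Γ)⁻¹ ∈ X := hQ.1 hg
    have := (key ⟨_, hX⟩).mp (by
      rw [hSQ, Subgroup.mem_subgroupOf]
      exact hg)
    rw [hSP, Subgroup.mem_subgroupOf] at this
    have e : (((x⁻¹ * ⟨_, hX⟩ * x : ↥X)) : Γ) = g := by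
      simp only [Subgroup.coe_mul, Subgroup.coe_inv]
      group
    rwa [e] at this

theorem exists_syl2 (T : Subgroup Γ) : ∃ Q, IsSyl2 Q T := by
  have : Fact (Nat.Prime 2) := ⟨Nat.prime_two⟩
  obtain ⟨S⟩ : Nonempty (Sylow 2 ↥T) := inferInstance
  refine ⟨(S : Subgroup ↥T).map T.subtype, ?_, ?_, ?_⟩
  · exact Subgroup.map_subtype_le _
  · exact S.2.map _
  · rw [Subgroup.relIndex, Subgroup.subgroupOf, Subgroup.comap_map_eq_self_of_injective T.subtype_injective]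
    exact Nat.odd_iff.mpr (Nat.two_dvd_ne_zero.mp S.not_dvd_index)

theorem isSyl2_trans {Q T U : Subgroup Γ} (h : IsSyl2 Q T) (hTU : T ≤ U) (ho : Odd (T.relIndex U)) :
    IsSyl2 Q U := by
  refine ⟨h.1.trans hTU, h.2.1, ?_⟩
  rw [← Subgroup.relIndex_mul_relIndex Q T U h.1 hTU]
  exact h.2.2.mul ho

/-- an overgroup-free form: if `T ≤ U` has odd index, a conjugate of `P` lies in `T` -/
theorem exists_conj_le {P T U : Subgroup Γ} (hP : IsSyl2 P U) (hTU : T ≤ U)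
    (ho : Odd (T.relIndex U)) : ∃ u ∈ U, ∀ g ∈ P, u * g * u⁻¹ ∈ T := by
  obtain ⟨Q, hQ⟩ := exists_syl2 T
  obtain ⟨u, hu, h⟩ := syl2_conj hP (isSyl2_trans hQ hTU ho)
  exact ⟨u, hu, fun g hg => hQ.1 ((h g).mp hg)⟩

end Cfsg.Agent.Lib.Helper30ROSyl
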