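import Mathlib
import Cfsg.Agent.Lib.H79RODefs
import Cfsg.Agent.Lib.H79ROBasic
import Cfsg.Agent.Lib.Helper30ROSyl
import Cfsg.Agent.Lib.H79ROTInd
import Cfsg.Agent.Lib.H79ROTClf
import Cfsg.Agent.Lib.H79ROTTrans
import Cfsg.Agent.Lib.H79ROOverConj

set_option autoImplicit false

/-! PROJECT 79 = RO (row S4581), piece `Cover` (layer 3, est. 75m).  Overview: notes/helper79/RO/README.md.
You may import any landed library and any RO piece of a LOWER layer (already imported below).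
Keep file name, namespace, theorem names and statements; extra private-style helper lemmas are fine.

SKETCH.  TTrans.exists_lin_over gives lam₀ under β, trivial on L.  T = stab U M (amb lam₀).  TClf.clf_surj + TInd.charDegree_indA: β(1) = |U:T| ψ(1), so |U:T| is odd.  Hence T contains a Sylow 2-subgroup of U and some u ∈ U has u P u⁻¹ ≤ T
(Sylow conjugacy in ↥U; cf. `Helper80PSolv.exists_sylow_le_of_not_dvd_index`).  lam := lam₀.comp (cjM hs.norm ⟨u,_⟩).toMonoidHom, i.e. lam(m) = lam₀(u m u⁻¹): P-invariant, trivial on L (u normalizes L), under β by OverConj.over_conj. -/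

namespace Cfsg.Agent.Lib.H79ROCover

open Cfsg Cfsg.Agent.Lib.H79RODefs Cfsg.Agent.Lib.H79ROBasic
open Cfsg.Agent.Lib.H79ROTTrans Cfsg.Agent.Lib.H79ROTClf Cfsg.Agent.Lib.H79ROTInd Cfsg.Agent.Lib.H79ROOverConj
open scoped Classical ComplexConjugate

variable {Γ : Type*} [Group Γ] [Fintype Γ]

theorem cover {U L M P : Subgroup Γ} {q : ℕ} (hs : Sec U L M q) (hP : IsSyl2 P U)
    (β : IrrCharacter ↥U) (hodd : Odd (charDegree (β : ↥U → ℂ)))
    (hker : KerGe U L (β : ↥U → ℂ)) :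
    ∃ lam : ↥M →* ℂˣ, Triv L (amb lam) ∧ Inv P M (amb lam) ∧ Over U M (amb lam) (β : ↥U → ℂ) := by
  obtain ⟨lam0, hL0, ho0⟩ := exists_lin_over hs β hker
  have hl0 := isLin_amb lam0
  obtain ⟨ψ, hh, hind⟩ := clf_surj hs.leX hs.norm hl0 β ho0
  have hirr : IsIrrCharacter ↥U (indA (stab_le U M (amb lam0)) (ψ : ↥(stab U M (amb lam0)) → ℂ)) := by
    rw [hind]; exact β.2
  have hdeg := charDegree_indA (stab_le U M (amb lam0)) ψ hirr
  rw [hind] at hdeg
  rw [hdeg, Nat.odd_mul] at hodd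
  obtain ⟨u, hu, hc⟩ := Cfsg.Agent.Lib.Helper30ROSyl.exists_conj_le hP (stab_le U M (amb lam0)) hodd.1
  have hcM : ∀ m ∈ M, u * m * u⁻¹ ∈ M := fun m hm =>
    (Subgroup.mem_normalizer_iff.mp (hs.norm hu) m).mp hm
  have fact : ∀ m ∈ M, amb (lam0.comp (cjM hs.norm ⟨u, hu⟩).toMonoidHom) m = amb lam0 (u * m * u⁻¹) := by
    intro m hm
    have h1 := amb_apply (lam0.comp (cjM hs.norm ⟨u, hu⟩).toMonoidHom) ⟨m, hm⟩
    have h2 := amb_apply lam0 (cjM hs.norm ⟨u, hu⟩ ⟨m, hm⟩)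
    rw [cjM_coe] at h2
    exact h1.trans h2.symm
  refine ⟨lam0.comp (cjM hs.norm ⟨u, hu⟩).toMonoidHom, ?_, ?_, ?_⟩
  · intro a ha
    rw [fact a (hs.le ha)]
    exact hL0 _ ((Subgroup.mem_normalizer_iff.mp (hs.normL hu) a).mp ha)
  · intro p hp m hm
    have hpM : p * m * p⁻¹ ∈ M := (Subgroup.mem_normalizer_iff.mp (hs.norm (hP.1 hp)) m).mp hm
    rw [fact _ hpM, fact m hm]
    have := (hc p hp).2.2 (u * m * u⁻¹) (hcM m hm)
    rw [← this]
    congr 1
    group
  · exact over_conj hs.leX hs.norm β u hu fact ho0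

end Cfsg.Agent.Lib.H79ROCover
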