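import Mathlib
import Cfsg.Agent.Lib.H79RODefs
import Cfsg.Agent.Lib.H79ROBasic
import Cfsg.Agent.Lib.H79ROTSep
import Cfsg.Agent.Lib.H79ROTOverTw

set_option autoImplicit false

/-! PROJECT 79 = RO (row S4581), piece `EaOfEe` (layer 4, est. 30m).  Overview: notes/helper79/RO/README.md.
You may import any landed library and any RO piece of a LOWER layer (already imported below).
Keep file name, namespace, theorem names and statements; extra private-style helper lemmas are fine.

SKETCH.  TSep.sq_mem_of_real with K = P ⊔ L.  Given κ linear on P⊔L trivial on L, EE gives β (odd degree, L ≤ ker) with κ the unique linear constituent of β on P⊔L.  β is real (RealAll), so by TOverTw.over_star conj κ is also a constituent (conj β = β); conj κ is linear; uniqueness gives conj κ = κ on P⊔L. -/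

namespace Cfsg.Agent.Lib.H79ROEaOfEe

open Cfsg Cfsg.Agent.Lib.H79RODefs Cfsg.Agent.Lib.H79ROBasic
open Cfsg.Agent.Lib.H79ROTSep Cfsg.Agent.Lib.H79ROTOverTw
open scoped Classical ComplexConjugate

variable {Γ : Type*} [Group Γ] [Fintype Γ]

theorem ea_of_ee {X L P : Subgroup Γ} (hc : Cfg X L P) (hreal : RealAll X L) (hE : EE X L P) :
    EA P L := by
  have hKX : P ⊔ L ≤ X := sup_le hc.syl.1 hc.le
  refine sq_mem_of_real le_sup_right (hKX.trans hc.norm) ?_
  intro κ hκ hκL g hg
  obtain ⟨β, hodd, hker, hover, huniq⟩ := hE κ hκ hκL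
  have hr := hreal β hodd hker
  have h1 := over_star (β : ↥X → ℂ) hover
  have h2 : (fun x : ↥X => conj ((β : ↥X → ℂ) x)) = (β : ↥X → ℂ) := funext hr
  rw [h2] at h1
  have hlin : IsLin (P ⊔ L) (fun g => conj (κ g)) := by
    refine ⟨by simp [hκ.1], fun a ha b hb => ?_⟩
    simp only [hκ.2 a ha b hb, map_mul]
  exact huniq _ hlin h1 g hg

end Cfsg.Agent.Lib.H79ROEaOfEe
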