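import Mathlib
import Cfsg.Agent.Lib.H79RODefs
import Cfsg.Agent.Lib.H79ROBasic
import Cfsg.Agent.Lib.H79ROTLin
import Cfsg.Agent.Lib.Helper19Det

set_option autoImplicit false

/-! PROJECT 79 = RO (row S4581), piece `Ext` (layer 3). -/

namespace Cfsg.Agent.Lib.H79ROExt

open Cfsg Cfsg.Agent.Lib.H79RODefs Cfsg.Agent.Lib.H79ROBasic
open Cfsg.Agent.Lib.H79ROTLin
open scoped Classical ComplexConjugate

/-- the constant function `d` is a character with trivial determinant -/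
theorem const_char {A : Type*} [Group A] [Finite A] (d : ℕ) :
    IsCharacter A (fun _ => (d : ℂ)) ∧ detChar (fun _ : A => (d : ℂ)) = fun _ => 1 := by
  have h1 : (1 : Representation ℂ A (Fin d → ℂ)).character = fun _ => (d : ℂ) := by
    funext g
    show LinearMap.trace ℂ (Fin d → ℂ) ((1 : Representation ℂ A (Fin d → ℂ)) g) = _
    rw [MonoidHom.one_apply, LinearMap.trace_one, Module.finrank_fin_fun]
  refine ⟨⟨d, 1, h1⟩, ?_⟩
  rw [← h1, Cfsg.Agent.Lib.Helper19Det.detChar_rep]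
  funext g
  rw [MonoidHom.one_apply, map_one]

theorem pow_odd_of_sq {z : ℂ} (h : z ^ 2 = 1) {d : ℕ} (hd : Odd d) : z ^ d = z := by
  obtain ⟨k, rfl⟩ := hd
  rw [pow_succ, pow_mul, h, one_pow, one_mul]

variable {Γ : Type*} [Group Γ] [Fintype Γ]

theorem exists_ext {W Y M : Subgroup Γ} {lam : Γ → ℂ} (hMW : M ≤ W) (hWY : W ≤ Y)
    (hn : Y ≤ Subgroup.normalizer (M : Set Γ)) (hodd : Odd (W.relIndex Y)) (hi : Inv Y M lam)
    (hl : IsLin M lam) (hsq : ∀ m ∈ M, lam m ^ 2 = 1) (ψ : IrrCharacter ↥W)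
    (hψ : Odd (charDegree (ψ : ↥W → ℂ))) (hh : Hmg W M lam (ψ : ↥W → ℂ)) :
    ∃ μ : Γ → ℂ, IsLin Y μ ∧ TwoPow Y μ ∧ ∀ m ∈ M, μ m = lam m := by
  obtain ⟨f, hf⟩ := exists_hom hl
  set χ : ↥Y → ℂ := indA hWY (ψ : ↥W → ℂ) with hχdef
  have hχ : IsCharacter ↥Y χ :=
    Cfsg.Agent.Lib.Helper19Cliff.ind_isCharacter _
      (Cfsg.Agent.Lib.Helper4Char.IsIrrCharacter.isCharacter ψ.2)
  set d : ℕ := W.relIndex Y * charDegree (ψ : ↥W → ℂ) with hd
  have hdodd : Odd d := hodd.mul hψ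
  have hcW : (Nat.card ↥W : ℂ) ≠ 0 := by exact_mod_cast Nat.card_pos.ne'
  have hcard : (Nat.card ↥Y : ℂ) = (W.relIndex Y : ℂ) * (Nat.card ↥W : ℂ) := by
    have h1 := Subgroup.relIndex_mul_relIndex ⊥ W Y bot_le hWY
    rw [Subgroup.relIndex_bot_left, Subgroup.relIndex_bot_left] at h1
    rw [← h1]
    push_cast
    ring
  -- the restriction of `χ` to `M`
  have hres : (fun m : ↥M => χ (Subgroup.inclusion (hMW.trans hWY) m))
      = Cfsg.Agent.Lib.Helper19Lin.homFun f * (fun _ => (d : ℂ)) := by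
    funext m
    have h1 := Cfsg.Agent.Lib.Helper19Cliff.ind_apply_ι₂ (Subgroup.inclusion hWY)
      (Subgroup.inclusion_injective hWY) (Subgroup.inclusion hMW) (cjM hn)
      (fun g n => Subtype.ext rfl) (ψ : ↥W → ℂ) m
    have h2 : ∀ x : ↥Y, (ψ : ↥W → ℂ) (Subgroup.inclusion hMW (cjM hn x m))
        = (ψ : ↥W → ℂ) 1 * lam m := by
      intro x
      rw [hh _ (cjM hn x m).2]
      congr 1
      exact hi x x.2 m m.2
    rw [Finset.sum_congr rfl (fun x _ => h2 x), Finset.sum_const, Finset.card_univ,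
      ← Nat.card_eq_fintype_card, nsmul_eq_mul, hcard, apply_one_eq] at h1
    have h3 : χ (Subgroup.inclusion (hMW.trans hWY) m)
        = Cfsg.Agent.Lib.Helper19Cliff.ind (Subgroup.inclusion hWY) (ψ : ↥W → ℂ)
          (Subgroup.inclusion hWY (Subgroup.inclusion hMW m)) := rfl
    rw [h3, h1, Pi.mul_apply, Cfsg.Agent.Lib.Helper19Lin.homFun_apply, hf, hd]
    push_cast
    field_simp
  obtain ⟨δ, hδ⟩ := Cfsg.Agent.Lib.Helper19Det.exists_detHom hχ
  have hδM : ∀ m : ↥M, ((δ (Subgroup.inclusion (hMW.trans hWY) m) : ℂˣ) : ℂ) = lam m := by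
    intro m
    have h1 := Cfsg.Agent.Lib.Helper19Det.detChar_comp (Subgroup.inclusion (hMW.trans hWY)) hχ
    rw [hres, Cfsg.Agent.Lib.Helper19Det.detChar_homFun_mul f (const_char d).1 d rfl,
      (const_char d).2, hδ] at h1
    have h2 := congrFun h1 m
    simp only [Pi.mul_apply, Pi.pow_apply, Cfsg.Agent.Lib.Helper19Lin.homFun_apply, mul_one] at h2
    rw [← h2, hf]
    exact pow_odd_of_sq (hsq m m.2) hdodd
  obtain ⟨a, b, hb, hab⟩ := Nat.exists_eq_two_pow_mul_odd (n := Nat.card ↥Y) Nat.card_pos.ne'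
  refine ⟨amb (δ ^ b), isLin_amb _, ⟨a, ?_⟩, ?_⟩
  · intro y hy
    have h1 := amb_apply (δ ^ b) ⟨y, hy⟩
    simp only at h1
    rw [h1, ← Units.val_pow_eq_pow_val, MonoidHom.pow_apply, ← pow_mul, mul_comm, ← hab,
      ← map_pow, pow_card_eq_one', map_one, Units.val_one]
  · intro m hm
    have h1 := amb_apply (δ ^ b) ⟨m, hWY (hMW hm)⟩
    simp only at h1
    rw [h1, MonoidHom.pow_apply, Units.val_pow_eq_pow_val]
    have h2 := hδM ⟨m, hm⟩
    have h3 : Subgroup.inclusion (hMW.trans hWY) ⟨m, hm⟩ = (⟨m, hWY (hMW hm)⟩ : ↥Y) := rfl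
    rw [h3] at h2
    rw [h2]
    exact pow_odd_of_sq (hsq m hm) hb

end Cfsg.Agent.Lib.H79ROExt
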