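import Mathlib
import Cfsg.Agent.Lib.H79RODefs
import Cfsg.Agent.Lib.H79ROBasic
import Cfsg.Agent.Lib.Helper30ROSyl
import Cfsg.Agent.Lib.H79ROIdx
import Cfsg.Agent.Lib.H79ROTLin

set_option autoImplicit false

/-! PROJECT 79 = RO (row S4581), piece `Fusion` (layer 3, est. 75m).  Overview: notes/helper79/RO/README.md.
You may import any landed library and any RO piece of a LOWER layer (already imported below).
Keep file name, namespace, theorem names and statements; extra private-style helper lemmas are fine.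

SKETCH.  `Helper19Cliff.clifford_conj` (ι = inclusion hMU, c = cjM hn, Defs.over_iff, TLin.isIrr_lin): lam'(m) = lam(u m u⁻¹) on M for some u ∈ U.  lam' is P-invariant ⇒ lam is uPu⁻¹-invariant.  So P and uPu⁻¹ are Sylow 2-subgroups of T = stab U M lam
(2-groups of odd index: Idx.isSyl2_of_le), hence t(uPu⁻¹)t⁻¹ = P for some t ∈ T.  n = t·u ∈ U ⊓ N(P) and lam(n m n⁻¹) = lam(u m u⁻¹) = lam'(m). -/

namespace Cfsg.Agent.Lib.H79ROFusion

open Cfsg Cfsg.Agent.Lib.H79RODefs Cfsg.Agent.Lib.H79ROBasic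
open Cfsg.Agent.Lib.H79ROTLin Cfsg.Agent.Lib.H79ROIdx
open scoped Classical ComplexConjugate

variable {Γ : Type*} [Group Γ] [Fintype Γ]

theorem fusion {U M P : Subgroup Γ} (hMU : M ≤ U) (hn : U ≤ Subgroup.normalizer (M : Set Γ))
    (hP : IsSyl2 P U) (β : IrrCharacter ↥U) {lam lam' : Γ → ℂ} (hl : IsLin M lam)
    (hl' : IsLin M lam') (hi : Inv P M lam) (hi' : Inv P M lam')
    (ho : Over U M lam (β : ↥U → ℂ)) (ho' : Over U M lam' (β : ↥U → ℂ)) :
    ∃ n ∈ U ⊓ Subgroup.normalizer (P : Set Γ), ∀ m ∈ M, lam' m = lam (n * m * n⁻¹) := by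
  have h1 := (over_iff hMU lam (β : ↥U → ℂ)).mp ho
  have h2 := (over_iff hMU lam' (β : ↥U → ℂ)).mp ho'
  obtain ⟨u, hu⟩ := Cfsg.Agent.Lib.Helper19Cliff.clifford_conj (Subgroup.inclusion hMU)
    (Subgroup.inclusion_injective hMU) (cjM hn) (cjM_inclusion hn hMU) β.2 (isIrr_lin hl) (isIrr_lin hl') h1 h2
  have hu' : ∀ m ∈ M, lam' m = lam (u * m * (u : Γ)⁻¹) := by
    intro m hm
    exact congrFun hu ⟨m, hm⟩
  have hcM : ∀ x ∈ U, ∀ m ∈ M, x * m * x⁻¹ ∈ M := fun x hx m hm =>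
    (Subgroup.mem_normalizer_iff.mp (hn hx) m).mp hm
  -- the conjugate `Q = u P u⁻¹`
  let Q : Subgroup Γ := P.map (MulAut.conj (u : Γ)).toMonoidHom
  have hQmem : ∀ g, g ∈ Q ↔ (u : Γ)⁻¹ * g * u ∈ P := by
    intro g
    constructor
    · rintro ⟨p, hp, rfl⟩
      have : (u : Γ)⁻¹ * ((MulAut.conj (u : Γ)).toMonoidHom p) * u = p := by
        simp only [MulEquiv.coe_toMonoidHom, MulAut.conj_apply]; group
      rw [this]; exact hp
    · intro hg
      refine ⟨_, hg, ?_⟩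
      simp only [MulEquiv.coe_toMonoidHom, MulAut.conj_apply]; group
  have hQU : Q ≤ U := by
    intro g hg
    have := hP.1 ((hQmem g).mp hg)
    have h3 := U.mul_mem (U.mul_mem u.2 this) (U.inv_mem u.2)
    have e : (u : Γ) * ((u : Γ)⁻¹ * g * u) * (u : Γ)⁻¹ = g := by group
    rwa [e] at h3
  have hQs : IsSyl2 Q U := by
    refine ⟨hQU, hP.2.1.map _, ?_⟩
    have hcard : Nat.card Q = Nat.card P :=
      Nat.card_congr (Subgroup.equivMapOfInjective P _ (MulAut.conj (u : Γ)).injective).toEquiv.symm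
    have e1 := Subgroup.relIndex_mul_relIndex ⊥ Q U bot_le hQU
    have e2 := Subgroup.relIndex_mul_relIndex ⊥ P U bot_le hP.1
    rw [Subgroup.relIndex_bot_left, Subgroup.relIndex_bot_left] at e1 e2
    rw [hcard] at e1
    have : Q.relIndex U = P.relIndex U :=
      Nat.eq_of_mul_eq_mul_left Nat.card_pos (e1.trans e2.symm)
    rw [this]; exact hP.2.2
  have hPT : P ≤ stab U M lam := le_stab_of_inv hP.1 hn hi
  have hQT : Q ≤ stab U M lam := by
    apply le_stab_of_inv hQU hn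
    intro g hg m hm
    have hp := (hQmem g).mp hg
    -- `lam (g m g⁻¹) = lam' (u⁻¹ g m g⁻¹ u) = lam' (p (u⁻¹ m u) p⁻¹) = lam' (u⁻¹ m u) = lam m`
    have hm' : (u : Γ)⁻¹ * m * u ∈ M := by
      have := hcM _ (U.inv_mem u.2) m hm
      rwa [inv_inv] at this
    have a1 := hi' _ hp _ hm'
    have hm'' := hcM _ (hP.1 hp) _ hm'
    rw [hu' _ hm'', hu' _ hm'] at a1
    have e1 : (u : Γ) * ((u : Γ)⁻¹ * g * u * ((u : Γ)⁻¹ * m * u) * ((u : Γ)⁻¹ * g * u)⁻¹) * (u : Γ)⁻¹ =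
        g * m * g⁻¹ := by group
    have e2 : (u : Γ) * ((u : Γ)⁻¹ * m * u) * (u : Γ)⁻¹ = m := by group
    rwa [e1, e2] at a1
  have sP := (isSyl2_of_le hP hPT (stab_le U M lam)).1
  have sQ := (isSyl2_of_le hQs hQT (stab_le U M lam)).1
  obtain ⟨t, ht, htc⟩ := Cfsg.Agent.Lib.Helper30ROSyl.syl2_conj sQ sP
  refine ⟨t * u, ⟨U.mul_mem ht.1 u.2, ?_⟩, ?_⟩
  · show t * u ∈ Subgroup.normalizer (P : Set Γ)
    rw [Subgroup.mem_normalizer_iff]
    intro g
    have := htc ((u : Γ) * g * (u : Γ)⁻¹)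
    rw [hQmem] at this
    have e1 : (u : Γ)⁻¹ * ((u : Γ) * g * (u : Γ)⁻¹) * u = g := by group
    have e2 : t * ((u : Γ) * g * (u : Γ)⁻¹) * t⁻¹ = t * u * g * (t * u)⁻¹ := by group
    rwa [e1, e2] at this
  · intro m hm
    rw [hu' m hm]
    have := ht.2.2 _ (hcM _ u.2 m hm)
    rw [← this]
    congr 1
    group

end Cfsg.Agent.Lib.H79ROFusion
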