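import Mathlib
import Cfsg.Agent.Lib.H79RODefs
import Cfsg.Agent.Lib.H79ROBasic
import Cfsg.Agent.Lib.Helper82Linear
import Cfsg.Agent.Lib.Helper81Base

set_option autoImplicit false

/-! PROJECT 79 = RO (row S4581), piece `TFour` (layer 2). -/

namespace Cfsg.Agent.Lib.H79ROTFour

open Cfsg Cfsg.Agent.Lib.H79RODefs Cfsg.Agent.Lib.H79ROBasic
open scoped Classical ComplexConjugate

section Dual

variable {A : Type*} [Group A] [Finite A] (N : Subgroup A) [N.Normal]

/-- the quotient by a subgroup containing all commutators is commutative -/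
@[reducible] def commQ (hcomm : ∀ a b : A, a * b * a⁻¹ * b⁻¹ ∈ N) : CommGroup (A ⧸ N) :=
  { (inferInstance : Group (A ⧸ N)) with
    mul_comm := by
      intro a b
      induction a using QuotientGroup.induction_on with
      | H a =>
        induction b using QuotientGroup.induction_on with
        | H b =>
          rw [← QuotientGroup.mk_mul, ← QuotientGroup.mk_mul, QuotientGroup.eq]
          have := hcomm b⁻¹ a⁻¹
          simpa [mul_assoc] using this }

theorem exists_sep (hcomm : ∀ a b : A, a * b * a⁻¹ * b⁻¹ ∈ N) {x : A} (hx : x ∉ N) :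
    ∃ lam : A →* ℂˣ, (∀ n ∈ N, lam n = 1) ∧ lam x ≠ 1 := by
  let _ : CommGroup (A ⧸ N) := commQ N hcomm
  have hne : ((x : A) : A ⧸ N) ≠ 1 := by rwa [Ne, QuotientGroup.eq_one_iff]
  have : NeZero (Monoid.exponent (A ⧸ N)) := ⟨Monoid.exponent_ne_zero_of_finite⟩
  obtain ⟨φ, hφ⟩ := CommGroup.exists_apply_ne_one_of_hasEnoughRootsOfUnity (A ⧸ N) ℂ hne
  refine ⟨φ.comp (QuotientGroup.mk' N), ?_, hφ⟩
  intro n hn
  have : ((n : A) : A ⧸ N) = 1 := (QuotientGroup.eq_one_iff n).2 hn
  simp [this]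

theorem card_triv (hcomm : ∀ a b : A, a * b * a⁻¹ * b⁻¹ ∈ N) :
    Nat.card {lam : A →* ℂˣ // ∀ n ∈ N, lam n = 1} = N.index := by
  let _ : CommGroup (A ⧸ N) := commQ N hcomm
  have : NeZero (Monoid.exponent (A ⧸ N)) := ⟨Monoid.exponent_ne_zero_of_finite⟩
  let e : {lam : A →* ℂˣ // ∀ n ∈ N, lam n = 1} ≃ ((A ⧸ N) →* ℂˣ) :=
    { toFun := fun lam => QuotientGroup.lift N lam.1 (fun n hn => lam.2 n hn)
      invFun := fun φ => ⟨φ.comp (QuotientGroup.mk' N), fun n hn => by
        have : ((n : A) : A ⧸ N) = 1 := (QuotientGroup.eq_one_iff n).2 hn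
        simp [this]⟩
      left_inv := fun lam => by
        apply Subtype.ext
        ext a
        rfl
      right_inv := fun φ => by
        ext a
        rfl }
  rw [Nat.card_congr e, CommGroup.card_monoidHom_of_hasEnoughRootsOfUnity]
  rfl

theorem sum_triv (hcomm : ∀ a b : A, a * b * a⁻¹ * b⁻¹ ∈ N) [Fintype (A →* ℂˣ)]
    [DecidablePred (fun lam : A →* ℂˣ => ∀ n ∈ N, lam n = 1)] (x : A) [Decidable (x ∈ N)] :
    ∑ lam : A →* ℂˣ, (if (∀ n ∈ N, lam n = 1) then ((lam x : ℂˣ) : ℂ) else 0)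
      = if x ∈ N then (N.index : ℂ) else 0 := by
  by_cases hx : x ∈ N
  · rw [if_pos hx]
    have h1 : ∀ lam : A →* ℂˣ, (if (∀ n ∈ N, lam n = 1) then ((lam x : ℂˣ) : ℂ) else 0)
        = if (∀ n ∈ N, lam n = 1) then (1 : ℂ) else 0 := by
      intro lam
      split_ifs with h
      · rw [h x hx]; rfl
      · rfl
    rw [Finset.sum_congr rfl (fun lam _ => h1 lam), Finset.sum_boole, ← card_triv N hcomm,
      Nat.card_eq_fintype_card, Fintype.card_subtype]
  · rw [if_neg hx]
    obtain ⟨lam₀, h0, h0x⟩ := exists_sep N hcomm hx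
    set S := ∑ lam : A →* ℂˣ, (if (∀ n ∈ N, lam n = 1) then ((lam x : ℂˣ) : ℂ) else 0) with hS
    have h1 : ((lam₀ x : ℂˣ) : ℂ) * S = S := by
      rw [hS, Finset.mul_sum]
      apply Fintype.sum_equiv (Equiv.mulLeft lam₀)
      intro lam
      have hiff : (∀ n ∈ N, (Equiv.mulLeft lam₀ lam) n = 1) ↔ (∀ n ∈ N, lam n = 1) := by
        constructor
        · intro h n hn
          have := h n hn
          rwa [Equiv.coe_mulLeft, MonoidHom.mul_apply, h0 n hn, one_mul] at this
        · intro h n hn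
          rw [Equiv.coe_mulLeft, MonoidHom.mul_apply, h0 n hn, h n hn, one_mul]
      by_cases h : ∀ n ∈ N, lam n = 1
      · rw [if_pos h, if_pos (hiff.2 h), Equiv.coe_mulLeft, MonoidHom.mul_apply, Units.val_mul]
      · rw [if_neg h, if_neg (fun h' => h (hiff.1 h')), mul_zero]
    have h2 : (((lam₀ x : ℂˣ) : ℂ) - 1) * S = 0 := by
      rw [sub_mul, h1, one_mul, sub_self]
    rcases mul_eq_zero.1 h2 with h3 | h3
    · exfalso
      apply h0x
      apply Units.ext
      rw [Units.val_one]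
      exact sub_eq_zero.1 h3
    · exact h3

end Dual

variable {Γ : Type*} [Group Γ] [Fintype Γ]

theorem four {U L M : Subgroup Γ} {q : ℕ} (hs : Sec U L M q) (β : IrrCharacter ↥U)
    (hker : KerGe U L (β : ↥U → ℂ)) :
    ∃ a : (↥M →* ℂˣ) → ℕ,
      (∀ lam : ↥M →* ℂˣ, ((a lam : ℕ) : ℂ) * (Nat.card ↥M : ℂ) =
        ∑ g : ↥U, if (g : Γ) ∈ M then (β : ↥U → ℂ) g * conj (amb lam g) else 0) ∧
      ∑ᶠ lam : ↥M →* ℂˣ, (if Triv L (amb lam) then a lam else 0) =
        charDegree (β : ↥U → ℂ) := by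
  have hMU := hs.leX
  set βM : ↥M → ℂ := fun m => (β : ↥U → ℂ) (Subgroup.inclusion hMU m) with hβMdef
  have hβM : IsCharacter ↥M βM :=
    Cfsg.Agent.Lib.Helper4Char4.IsCharacter.comp (Subgroup.inclusion hMU)
      (Cfsg.Agent.Lib.Helper4Char.IsIrrCharacter.isCharacter β.2)
  have hsum : ∀ f : Γ → ℂ, (∑ g : ↥U, if (g : Γ) ∈ M then (β : ↥U → ℂ) g * conj (f g) else 0) =
      ∑ m : ↥M, βM m * conj (f m) := by
    intro f
    rw [← Finset.sum_filter]
    symm
    refine Finset.sum_bij (fun m _ => Subgroup.inclusion hMU m) ?_ ?_ ?_ ?_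
    · intro m _
      simp only [Finset.mem_filter, Finset.mem_univ, true_and]
      exact m.2
    · intro a _ b _ hab
      exact Subgroup.inclusion_injective hMU hab
    · intro g hg
      simp only [Finset.mem_filter, Finset.mem_univ, true_and] at hg
      exact ⟨⟨g, hg⟩, Finset.mem_univ _, Subtype.ext rfl⟩
    · intro m _
      rfl
  have hcM : (Nat.card ↥M : ℂ) ≠ 0 := by exact_mod_cast Nat.card_pos.ne'
  have hfirst : ∀ lam : ↥M →* ℂˣ,
      ((Cfsg.Agent.Lib.Helper19Cliff.nip βM (fun m => ((lam m : ℂˣ) : ℂ)) : ℕ) : ℂ)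
        * (Nat.card ↥M : ℂ) = ∑ m : ↥M, βM m * conj ((lam m : ℂˣ) : ℂ) := by
    intro lam
    have h1 := Cfsg.Agent.Lib.Helper19Cliff.nip_spec hβM
      (Cfsg.Agent.Lib.Helper4Char.IsIrrCharacter.isCharacter
        (Cfsg.Agent.Lib.Helper82Linear.isIrrCharacter_of_hom lam))
    rw [← h1]
    unfold classInner
    rw [mul_comm, ← mul_assoc, mul_inv_cancel₀ hcM, one_mul]
  refine ⟨fun lam => Cfsg.Agent.Lib.Helper19Cliff.nip βM (fun m => ((lam m : ℂˣ) : ℂ)), ?_, ?_⟩
  · intro lam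
    rw [hsum, hfirst]
    simp only [amb_apply]
  · have : (L.subgroupOf M).Normal :=
      (Subgroup.normal_subgroupOf_iff_le_normalizer hs.le).2 (hMU.trans hs.normL)
    let _ : Fintype (↥M →* ℂˣ) := Fintype.ofFinite _
    have hcomm : ∀ a b : ↥M, a * b * a⁻¹ * b⁻¹ ∈ L.subgroupOf M := by
      intro a b
      rw [Subgroup.mem_subgroupOf]
      exact hs.comm a a.2 b b.2
    have hD : ∀ lam : ↥M →* ℂˣ, Triv L (amb lam) ↔ ∀ n ∈ L.subgroupOf M, lam n = 1 := by
      intro lam
      constructor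
      · intro h n hn
        have h1 := h (n : Γ) (Subgroup.mem_subgroupOf.1 hn)
        rw [amb_apply] at h1
        exact Units.ext h1
      · intro h a ha
        have h1 := h ⟨a, hs.le ha⟩ (Subgroup.mem_subgroupOf.2 ha)
        have h2 := amb_apply lam ⟨a, hs.le ha⟩
        rw [h1] at h2
        exact h2
    rw [finsum_eq_sum_of_fintype]
    have hgoal : (((∑ lam : ↥M →* ℂˣ, (if Triv L (amb lam) then
        Cfsg.Agent.Lib.Helper19Cliff.nip βM (fun m => ((lam m : ℂˣ) : ℂ)) else 0) : ℕ)) : ℂ)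
          * (Nat.card ↥M : ℂ) = (charDegree (β : ↥U → ℂ) : ℂ) * (Nat.card ↥M : ℂ) := by
      rw [Nat.cast_sum, Finset.sum_mul]
      have h1 : ∀ lam : ↥M →* ℂˣ, (((if Triv L (amb lam) then
          Cfsg.Agent.Lib.Helper19Cliff.nip βM (fun m => ((lam m : ℂˣ) : ℂ)) else 0 : ℕ)) : ℂ)
            * (Nat.card ↥M : ℂ)
          = ∑ m : ↥M, βM m * conj (if (∀ n ∈ L.subgroupOf M, lam n = 1) then ((lam m : ℂˣ) : ℂ) else 0) := by
        intro lam
        by_cases h : Triv L (amb lam)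
        · rw [if_pos h, hfirst]
          simp only [if_pos ((hD lam).1 h)]
        · rw [if_neg h]
          simp only [if_neg (fun h' => h ((hD lam).2 h'))]
          simp
      rw [Finset.sum_congr rfl (fun lam _ => h1 lam), Finset.sum_comm]
      have h2 : ∀ m : ↥M, ∑ lam : ↥M →* ℂˣ, βM m * conj (if (∀ n ∈ L.subgroupOf M, lam n = 1) then ((lam m : ℂˣ) : ℂ) else 0)
          = if m ∈ L.subgroupOf M then (β : ↥U → ℂ) 1 * ((L.subgroupOf M).index : ℂ) else 0 := by
        intro m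
        rw [← Finset.mul_sum, ← map_sum, sum_triv (L.subgroupOf M) hcomm m]
        split_ifs with hm
        · rw [Complex.conj_natCast]
          congr 1
          exact hker _ (Subgroup.mem_subgroupOf.1 hm)
        · simp
      rw [Finset.sum_congr rfl (fun m _ => h2 m), ← Finset.sum_filter, Finset.sum_const,
        nsmul_eq_mul, ← Cfsg.Agent.Lib.Helper81Base.charDegree_eq β]
      have h3 : (Finset.univ.filter (fun m : ↥M => m ∈ L.subgroupOf M)).card
          = Nat.card (L.subgroupOf M) := by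
        rw [Nat.card_eq_fintype_card, Fintype.card_subtype]
      rw [h3, ← Subgroup.card_mul_index (L.subgroupOf M)]
      push_cast
      ring
    exact_mod_cast mul_right_cancel₀ hcM hgoal

end Cfsg.Agent.Lib.H79ROTFour
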