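import Mathlib
import Cfsg.Agent.Lib.H79RODefs
import Cfsg.Agent.Lib.H79ROBasic
import Cfsg.Agent.Lib.H79ROTLin
import Cfsg.Agent.Lib.H79ROTFour

set_option autoImplicit false

/-! PROJECT 79 = RO (row S4581), piece `SsEmpty` (layer 3, est. 75m).  Overview: notes/helper79/RO/README.md.
You may import any landed library and any RO piece of a LOWER layer (already imported below).
Keep file name, namespace, theorem names and statements; extra private-style helper lemmas are fine.

SKETCH.  Suppose β ∈ SS U L ν.  For l ∈ L: β(1) = conj β(l) = ν(l)β(1) so ν is trivial on L, hence ν(m)² = ν(m²) = 1 on M and ν is real on M; every lam trivial on L is real as well (Basic.sq_of_sec).  Take a from TFour.four.  Let ν_M : ↥M →* ℂˣ be the restriction (TLin.exists_hom on M).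
a(ν_M·lam)|M| = Σ β(m) conj(ν m) conj(lam m) = Σ conj(β m) conj(lam m) = conj(Σ β(m) conj(lam m)) = a(lam)|M|.  lam ↦ ν_M·lam is an involution of {lam trivial on L} without fixed points (ν_M ≠ 1).  So charDegree β = Σ a(lam) is even (`Finset.sum_involution` in ZMod 2): contradiction. -/

namespace Cfsg.Agent.Lib.H79ROSsEmpty

open Cfsg Cfsg.Agent.Lib.H79RODefs Cfsg.Agent.Lib.H79ROBasic
open Cfsg.Agent.Lib.H79ROTLin Cfsg.Agent.Lib.H79ROTFour
open scoped Classical ComplexConjugate

variable {Γ : Type*} [Group Γ] [Fintype Γ]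

theorem ss_empty {U L M : Subgroup Γ} {ν : Γ → ℂ} (hs : Sec U L M 2) (hν : IsLin U ν)
    (hM : ¬ Triv M ν) : SS U L ν = ∅ := by
  rw [Set.eq_empty_iff_forall_notMem]
  rintro β ⟨hodd, htw, hker⟩
  have hνM : IsLin M ν := isLin_mono hν hs.leX
  have hb1 := apply_one_eq β
  have hdeg0 : ((charDegree (β : ↥U → ℂ) : ℕ) : ℂ) ≠ 0 := by
    have : charDegree (β : ↥U → ℂ) ≠ 0 := by
      rintro h; rw [h] at hodd; exact absurd hodd (by decide)
    exact_mod_cast this
  -- `ν` is trivial on `L`
  have hL : Triv L ν := by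
    intro l hl
    have hlU : l ∈ U := hs.leX (hs.le hl)
    have h1 := htw ⟨l, hlU⟩
    rw [hker ⟨l, hlU⟩ hl, hb1, Complex.conj_natCast] at h1
    have h2 : (ν l - 1) * ((charDegree (β : ↥U → ℂ) : ℕ) : ℂ) = 0 := by
      have : ν ((⟨l, hlU⟩ : ↥U) : Γ) = ν l := rfl
      rw [this] at h1
      linear_combination -h1
    rcases mul_eq_zero.mp h2 with h | h
    · exact sub_eq_zero.mp h
    · exact absurd h hdeg0
  have hsq : ∀ m ∈ M, ν m ^ 2 = 1 := sq_of_sec hs hνM hL
  have real_of : ∀ κ : Γ → ℂ, IsLin M κ → (∀ m ∈ M, κ m ^ 2 = 1) → ∀ m ∈ M, conj (κ m) = κ m := by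
    intro κ hκ h2 m hm
    have h1 := norm_one hκ hm
    have h3 := h2 m hm
    have hne : κ m ≠ 0 := by
      intro h; rw [h] at h3; simp at h3
    apply mul_left_cancel₀ hne
    rw [h1, ← pow_two, h3]
  obtain ⟨a, ha, hsum⟩ := four hs β hker
  obtain ⟨f, hf⟩ := exists_hom hνM
  have hamb : ∀ (lam : ↥M →* ℂˣ), ∀ g ∈ M, amb (f * lam) g = ν g * amb lam g := by
    intro lam g hg
    have h1 := amb_apply (f * lam) ⟨g, hg⟩
    have h2 := amb_apply lam ⟨g, hg⟩
    have h3 := hf ⟨g, hg⟩
    simp only [MonoidHom.mul_apply, Units.val_mul] at h1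
    rw [h3, ← h2] at h1
    exact h1
  have hcardM : (Nat.card ↥M : ℂ) ≠ 0 := by exact_mod_cast Nat.card_pos.ne'
  have hinv : ∀ lam : ↥M →* ℂˣ, Triv L (amb lam) → a (f * lam) = a lam := by
    intro lam hlam
    have hreal := real_of (amb lam) (isLin_amb lam) (sq_of_sec hs (isLin_amb lam) hlam)
    have hνreal := real_of ν hνM hsq
    have h1 := ha (f * lam)
    have h2 := ha lam
    have h3 : (∑ g : ↥U, if (g : Γ) ∈ M then (β : ↥U → ℂ) g * conj (amb (f * lam) g) else 0) =
        conj (∑ g : ↥U, if (g : Γ) ∈ M then (β : ↥U → ℂ) g * conj (amb lam g) else 0) := by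
      rw [map_sum]
      refine Finset.sum_congr rfl fun g _ => ?_
      by_cases hg : (g : Γ) ∈ M
      · rw [if_pos hg, if_pos hg, hamb lam g hg, map_mul, map_mul, htw g, hνreal g hg, hreal g hg,
          hreal g hg]
        ring
      · rw [if_neg hg, if_neg hg, map_zero]
    rw [h3, ← h2, map_mul, Complex.conj_natCast, Complex.conj_natCast] at h1
    have := mul_right_cancel₀ hcardM h1
    exact_mod_cast this
  have hff : f * f = 1 := by
    ext m
    simp only [MonoidHom.mul_apply, Units.val_mul, MonoidHom.one_apply, Units.val_one]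
    rw [hf m, ← pow_two]
    exact hsq m m.2
  have hf1 : f ≠ 1 := by
    intro h
    apply hM
    intro m hm
    have := hf ⟨m, hm⟩
    rw [h] at this
    simpa using this.symm
  have : Fintype (↥M →* ℂˣ) := Fintype.ofFinite _
  rw [finsum_eq_sum_of_fintype, ← Finset.sum_filter] at hsum
  have hz : ∑ lam ∈ Finset.univ.filter (fun lam : ↥M →* ℂˣ => Triv L (amb lam)), ((a lam : ℕ) : ZMod 2) = 0 := by
    refine Finset.sum_involution (fun lam _ => f * lam) ?_ ?_ ?_ ?_
    · intro lam hlam
      rw [Finset.mem_filter] at hlam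
      rw [hinv lam hlam.2]
      exact CharTwo.add_self_eq_zero _
    · intro lam _ _ h
      apply hf1
      apply MonoidHom.ext
      intro m
      have h' := DFunLike.congr_fun h m
      rw [MonoidHom.mul_apply] at h'
      rw [MonoidHom.one_apply]
      exact mul_eq_right.mp h'
    · intro lam hlam
      rw [Finset.mem_filter] at hlam ⊢
      refine ⟨Finset.mem_univ _, fun l hl => ?_⟩
      rw [hamb lam l (hs.le hl), hL l hl, hlam.2 l hl, one_mul]
    · intro lam _
      apply MonoidHom.ext
      intro m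
      have h' := DFunLike.congr_fun hff m
      rw [MonoidHom.mul_apply, MonoidHom.one_apply] at h'
      rw [MonoidHom.mul_apply, MonoidHom.mul_apply, ← mul_assoc, h', one_mul]
  rw [← Nat.cast_sum, hsum, ZMod.natCast_eq_zero_iff_even] at hz
  exact (Nat.not_even_iff_odd.mpr hodd) hz

end Cfsg.Agent.Lib.H79ROSsEmpty
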