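import Mathlib
import Cfsg.Agent.Lib.H79RODefs
import Cfsg.Agent.Lib.H79ROBasic
import Cfsg.Agent.Lib.H79ROTLin
import Cfsg.Agent.Lib.H79ROTHmg
import Cfsg.Agent.Lib.H79ROTFour

set_option autoImplicit false

/-! PROJECT 79 = RO (row S4581), piece `SsOdd` (layer 3, est. 75m).  Overview: notes/helper79/RO/README.md.
You may import any landed library and any RO piece of a LOWER layer (already imported below).
Keep file name, namespace, theorem names and statements; extra private-style helper lemmas are fine.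

SKETCH.  ⊇ is trivial (L ≤ M).  ⊆: β odd degree, conj β = νβ, L ≤ ker β.  Take a from TFour.four.  On M, ν = 1, so β is real on M and a(lam⁻¹) = a(lam) (conjugate the defining sum; conj(amb lam m) = amb lam⁻¹ m; a is a natural number so it is its own conjugate).
lam ↦ lam⁻¹ is an involution of {lam trivial on L} whose only fixed point is 1 (lam² = 1 and lam^q = 1 as m^q ∈ L).  So charDegree β = Σ a(lam) ≡ a(1) mod 2 (`Finset.sum_involution` in ZMod 2 on the complement of {1}), a(1) ≠ 0, i.e. Over U M (amb 1) β, and THmg.kerGe_of_over gives M ≤ ker β. -/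

namespace Cfsg.Agent.Lib.H79ROSsOdd

open Cfsg Cfsg.Agent.Lib.H79RODefs Cfsg.Agent.Lib.H79ROBasic
open Cfsg.Agent.Lib.H79ROTLin Cfsg.Agent.Lib.H79ROTHmg Cfsg.Agent.Lib.H79ROTFour
open scoped Classical ComplexConjugate

variable {Γ : Type*} [Group Γ] [Fintype Γ]

theorem ss_eq_of_odd {U L M : Subgroup Γ} {q : ℕ} {ν : Γ → ℂ} (hs : Sec U L M q) (hq : q ≠ 2)
    (hM : Triv M ν) : SS U L ν = SS U M ν := by
  apply Set.eq_of_subset_of_subset
  swap
  · rintro β ⟨ho, ht, hk⟩
    exact ⟨ho, ht, fun g hg => hk g (hs.le hg)⟩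
  rintro β ⟨ho, ht, hk⟩
  refine ⟨ho, ht, ?_⟩
  obtain ⟨a, ha, hsum⟩ := four hs β hk
  have hMne : (Nat.card ↥M : ℂ) ≠ 0 := by
    exact_mod_cast Nat.card_pos.ne'
  -- conj (amb lam⁻¹ g) = amb lam g on M
  have hconj : ∀ (lam : ↥M →* ℂˣ) (g : Γ), g ∈ M → conj (amb lam⁻¹ g) = amb lam g := by
    intro lam g hg
    have h1 := norm_one (isLin_amb lam⁻¹) hg
    have h2 : amb lam⁻¹ g * amb lam g = 1 := by
      have e1 := amb_apply lam⁻¹ ⟨g, hg⟩
      have e2 := amb_apply lam ⟨g, hg⟩
      simp only at e1 e2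
      rw [e1, e2, MonoidHom.inv_apply, ← Units.val_mul, inv_mul_cancel, Units.val_one]
    have h3 : amb lam⁻¹ g ≠ 0 := left_ne_zero_of_mul_eq_one h2
    exact mul_left_cancel₀ h3 (h1.trans h2.symm)
  have hainv : ∀ lam : ↥M →* ℂˣ, a lam⁻¹ = a lam := by
    intro lam
    have h1 := ha lam⁻¹
    have h2 := congrArg conj (ha lam)
    rw [map_mul, map_natCast, map_natCast, map_sum] at h2
    have h3 : (∑ g : ↥U, conj (if (g : Γ) ∈ M then (β : ↥U → ℂ) g * conj (amb lam g) else 0)) =
        ∑ g : ↥U, if (g : Γ) ∈ M then (β : ↥U → ℂ) g * conj (amb lam⁻¹ g) else 0 := by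
      apply Finset.sum_congr rfl
      intro g _
      by_cases hg : (g : Γ) ∈ M
      · rw [if_pos hg, if_pos hg, map_mul, Complex.conj_conj, ht g, hM g hg, one_mul, hconj lam g hg]
      · rw [if_neg hg, if_neg hg, map_zero]
    rw [h3, ← h1] at h2
    exact_mod_cast (mul_right_cancel₀ hMne h2).symm
  have htriv : ∀ lam : ↥M →* ℂˣ, Triv L (amb lam⁻¹) ↔ Triv L (amb lam) := by
    have key : ∀ lam : ↥M →* ℂˣ, Triv L (amb lam) → Triv L (amb lam⁻¹) := by
      intro lam h x hx
      have h1 := hconj lam x (hs.le hx)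
      rw [h x hx] at h1
      have := congrArg conj h1
      rwa [Complex.conj_conj, map_one] at this
    intro lam
    refine ⟨fun h => ?_, key lam⟩
    have := key _ h
    have e : (lam⁻¹)⁻¹ = lam := inv_inv lam
    rwa [e] at this
  have ha1 : a 1 ≠ 0 := by
    intro h0
    have : Fintype (↥M →* ℂˣ) := Fintype.ofFinite _
    rw [finsum_eq_sum_of_fintype] at hsum
    have hz : (∑ lam : ↥M →* ℂˣ, (((if Triv L (amb lam) then a lam else 0 : ℕ)) : ZMod 2)) = 0 := by
      apply Finset.sum_involution (fun lam _ => lam⁻¹)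
      · intro lam _
        have e : (if Triv L (amb lam⁻¹) then a lam⁻¹ else 0) = (if Triv L (amb lam) then a lam else 0) := by
          rw [hainv lam]
          by_cases h : Triv L (amb lam)
          · rw [if_pos h, if_pos ((htriv lam).2 h)]
          · rw [if_neg h, if_neg (fun h' => h ((htriv lam).1 h'))]
        rw [e]
        exact CharTwo.add_self_eq_zero _
      · intro lam _ hne hinv
        apply hne
        by_cases h : Triv L (amb lam)
        swap
        · rw [if_neg h]; simp
        have hl1 : lam = 1 := by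
          have h2 : lam ^ 2 = 1 := by
            rw [pow_two]
            nth_rewrite 1 [← hinv]
            exact inv_mul_cancel lam
          have hqq : lam ^ q = 1 := by
            ext m
            have h3 : amb lam ((m ^ q : ↥M) : Γ) = 1 := h _ (by
              rw [Subgroup.coe_pow]; exact hs.pow m m.2)
            rw [amb_apply] at h3
            rw [MonoidHom.pow_apply, ← map_pow, h3]
            simp
          have hcop : Nat.Coprime 2 q :=
            (Nat.coprime_primes Nat.prime_two hs.prime).2 (Ne.symm hq)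
          have h4 : orderOf lam ∣ Nat.gcd 2 q :=
            Nat.dvd_gcd (orderOf_dvd_of_pow_eq_one h2) (orderOf_dvd_of_pow_eq_one hqq)
          rw [hcop] at h4
          exact orderOf_eq_one_iff.1 (Nat.dvd_one.1 h4)
        rw [hl1, h0]
        simp
      · intro lam _
        exact inv_inv lam
      · intro lam _
        exact Finset.mem_univ _
    rw [← Nat.cast_sum, hsum] at hz
    have h2 : 2 ∣ charDegree (β : ↥U → ℂ) := (ZMod.natCast_eq_zero_iff _ 2).1 hz
    exact (Nat.not_even_iff_odd.2 ho) (even_iff_two_dvd.2 h2)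
  have hover : Over U M (amb (1 : ↥M →* ℂˣ)) (β : ↥U → ℂ) := by
    unfold Over
    rw [← ha 1]
    exact mul_ne_zero (by exact_mod_cast ha1) hMne
  refine kerGe_of_over hs.leX hs.norm (isLin_amb 1) ?_ β hover
  intro x hx
  have := amb_apply (1 : ↥M →* ℂˣ) ⟨x, hx⟩
  simpa using this

end Cfsg.Agent.Lib.H79ROSsOdd
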