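import Mathlib
import Cfsg.Agent.Lib.H79RODefs
import Cfsg.Agent.Lib.H79ROBasic
import Cfsg.Agent.Lib.H79ROChief
import Cfsg.Agent.Lib.H79ROIdx
import Cfsg.Agent.Lib.H79RONNSup
import Cfsg.Agent.Lib.H79ROLeSup
import Cfsg.Agent.Lib.H79ROEaUp
import Cfsg.Agent.Lib.H79ROPartition
import Cfsg.Agent.Lib.H79ROEaBot
import Cfsg.Agent.Lib.H79ROTLin
import Cfsg.Agent.Lib.H79ROTInd
import Cfsg.Agent.Lib.H79ROTSep
import Cfsg.Agent.Lib.H79ROTExtOdd
import Cfsg.Agent.Lib.H79ROTKer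
import Cfsg.Agent.Lib.H79ROTSylTriv
import Cfsg.Agent.Lib.H79ROTClf
import Cfsg.Agent.Lib.H79ROTHmg
import Cfsg.Agent.Lib.H79ROTTrans
import Cfsg.Agent.Lib.H79ROTExOdd
import Cfsg.Agent.Lib.H79ROTExInv
import Cfsg.Agent.Lib.H79ROTrivOdd
import Cfsg.Agent.Lib.H79ROOverConj
import Cfsg.Agent.Lib.H79ROTop
import Cfsg.Agent.Lib.H79ROSub
import Cfsg.Agent.Lib.H79ROSelf
import Cfsg.Agent.Lib.H79ROTwistCard
import Cfsg.Agent.Lib.H79ROTOverTw
import Cfsg.Agent.Lib.H79ROTFour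

set_option autoImplicit false

/-! PROJECT 79 = RO (row S4581), piece `SsSup` (layer 3, est. 100m).  Overview: notes/helper79/RO/README.md.
You may import any landed library and any RO piece of a LOWER layer (already imported below).
Keep file name, namespace, theorem names and statements; extra private-style helper lemmas are fine.

SKETCH.  Restriction β ↦ β|_A is a bijection.  G = ↥(A ⊔ M), N = M.subgroupOf (A ⊔ M) normal.  β with M ≤ ker β is β̄ ∘ mk (`Helper82Quot.exists_deflate`); the composite ↥A → G → G ⧸ N is surjective (every element of A ⊔ M is a·m), so β|_A = β̄ ∘ (composite) is irreducible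
(`Helper82Quot.isIrrCharacter_comp`), same degree, kernel ⊇ A ⊓ M, and Tw restricts.  Injective: β(a m) = β(a) (TKer.kerGe_mul).  Surjective: α ∈ Irr(A) with A ⊓ M ≤ ker α deflates to A ⧸ (A ⊓ M) ≃* G ⧸ N (`QuotientGroup.quotientInfEquivProdNormalQuotient`, or `QuotientGroup.quotientKerEquivOfSurjective` for the composite, whose kernel is (A ⊓ M).subgroupOf A);
inflate to G.  Tw for β from Tw for α: conj β(am) = conj α(a) = ν(a)α(a) = ν(am)β(am) as ν is trivial on M. -/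

namespace Cfsg.Agent.Lib.H79ROSsSup

open Cfsg Cfsg.Agent.Lib.H79RODefs Cfsg.Agent.Lib.H79ROBasic
open Cfsg.Agent.Lib.H79ROChief Cfsg.Agent.Lib.H79ROIdx Cfsg.Agent.Lib.H79RONNSup Cfsg.Agent.Lib.H79ROLeSup Cfsg.Agent.Lib.H79ROEaUp Cfsg.Agent.Lib.H79ROPartition Cfsg.Agent.Lib.H79ROEaBot Cfsg.Agent.Lib.H79ROTLin Cfsg.Agent.Lib.H79ROTInd Cfsg.Agent.Lib.H79ROTSep Cfsg.Agent.Lib.H79ROTExtOdd Cfsg.Agent.Lib.H79ROTKer Cfsg.Agent.Lib.H79ROTSylTriv Cfsg.Agent.Lib.H79ROTClf Cfsg.Agent.Lib.H79ROTHmg Cfsg.Agent.Lib.H79ROTTrans Cfsg.Agent.Lib.H79ROTExOdd Cfsg.Agent.Lib.H79ROTExInv Cfsg.Agent.Lib.H79ROTrivOdd Cfsg.Agent.Lib.H79ROOverConj Cfsg.Agent.Lib.H79ROTop Cfsg.Agent.Lib.H79ROSub Cfsg.Agent.Lib.H79ROSelf Cfsg.Agent.Lib.H79ROTwistCard Cfsg.Agent.Lib.H79ROTOverTw Cfsg.Agent.Lib.H79ROTFour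
open scoped Classical ComplexConjugate

variable {Γ : Type*} [Group Γ] [Fintype Γ]

theorem card_ss_sup {A M : Subgroup Γ} {ν : Γ → ℂ} (hn : A ≤ Subgroup.normalizer (M : Set Γ))
    (hν : IsLin (A ⊔ M) ν) (hM : Triv M ν) :
    Nat.card (SS (A ⊔ M) M ν) = Nat.card (SS A (A ⊓ M) ν) := by
  have hnorm : A ⊔ M ≤ Subgroup.normalizer (M : Set Γ) := sup_le hn Subgroup.le_normalizer
  have hN : (M.subgroupOf (A ⊔ M)).Normal := Subgroup.normal_subgroupOf_of_le_normalizer hnorm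
  obtain ⟨ι, hι⟩ : ∃ ι : ↥A →* ↥(A ⊔ M), ∀ a : ↥A, ((ι a : ↥(A ⊔ M)) : Γ) = a :=
    ⟨Subgroup.inclusion le_sup_left, fun _ => rfl⟩
  -- every element is `a * m`
  have hdec : ∀ g : ↥(A ⊔ M), ∃ a : ↥A, ∃ n ∈ M.subgroupOf (A ⊔ M), ι a * n = g := by
    intro g
    have htop : A.subgroupOf (A ⊔ M) ⊔ M.subgroupOf (A ⊔ M) = ⊤ :=
      codisjoint_iff.1 (Subgroup.codisjoint_subgroupOf_sup A M)
    have hg : g ∈ A.subgroupOf (A ⊔ M) ⊔ M.subgroupOf (A ⊔ M) := by rw [htop]; trivial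
    obtain ⟨y, hy, z, hz, hyz⟩ := Subgroup.mem_sup_of_normal_right.1 hg
    refine ⟨⟨y, hy⟩, z, hz, ?_⟩
    rw [← hyz]
    congr 1
    apply Subtype.ext
    rw [hι]
  obtain ⟨π, hπ⟩ : ∃ π : ↥A →* ↥(A ⊔ M) ⧸ M.subgroupOf (A ⊔ M),
      ∀ a, π a = QuotientGroup.mk' (M.subgroupOf (A ⊔ M)) (ι a) :=
    ⟨(QuotientGroup.mk' (M.subgroupOf (A ⊔ M))).comp ι, fun _ => rfl⟩
  have hsurj : Function.Surjective π := by
    intro x
    obtain ⟨g, rfl⟩ := QuotientGroup.mk'_surjective _ x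
    obtain ⟨a, n, hn', rfl⟩ := hdec g
    refine ⟨a, ?_⟩
    rw [hπ, map_mul, (QuotientGroup.eq_one_iff n).mpr hn' |> fun h => (h : QuotientGroup.mk' _ n = 1),
      mul_one]
  have hone : ι 1 = 1 := map_one ι
  -- forward map
  have hfw : ∀ β : IrrCharacter ↥(A ⊔ M), β ∈ SS (A ⊔ M) M ν →
      ∃ hirr : IsIrrCharacter ↥A (fun a => (β : ↥(A ⊔ M) → ℂ) (ι a)),
        (⟨_, hirr⟩ : IrrCharacter ↥A) ∈ SS A (A ⊓ M) ν := by
    rintro β ⟨hd, htw, hk⟩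
    obtain ⟨β', hβ'⟩ := Cfsg.Agent.Lib.Helper82Quot.exists_deflate (M.subgroupOf (A ⊔ M)) β
      (fun n hn' => hk n hn')
    have hirr : IsIrrCharacter ↥A (fun a => (β : ↥(A ⊔ M) → ℂ) (ι a)) := by
      have := Cfsg.Agent.Lib.Helper82Quot.isIrrCharacter_comp β'.2 π hsurj
      convert this using 1
      funext a
      rw [← hβ', Cfsg.Agent.Lib.Helper82Quot.inflate_apply, Function.comp_apply, hπ]
      rfl
    refine ⟨hirr, ?_, ?_, ?_⟩
    · show Odd (charDegree (fun a => (β : ↥(A ⊔ M) → ℂ) (ι a)))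
      unfold charDegree
      simp only [hone]
      exact hd
    · intro a
      show conj ((β : ↥(A ⊔ M) → ℂ) (ι a)) = ν a * (β : ↥(A ⊔ M) → ℂ) (ι a)
      rw [htw (ι a), hι]
    · intro a ha
      show (β : ↥(A ⊔ M) → ℂ) (ι a) = (β : ↥(A ⊔ M) → ℂ) (ι 1)
      rw [hone]
      exact hk (ι a) (by rw [hι]; exact ha.2)
  refine Nat.card_congr (Equiv.ofBijective
    (fun β => ⟨⟨_, (hfw β.1 β.2).choose⟩, (hfw β.1 β.2).choose_spec⟩) ⟨?_, ?_⟩)
  · rintro ⟨β, hβ⟩ ⟨β', hβ'⟩ he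
    have he' : (fun a => (β : ↥(A ⊔ M) → ℂ) (ι a)) = (fun a => (β' : ↥(A ⊔ M) → ℂ) (ι a)) :=
      congrArg (fun x => ((x.1 : IrrCharacter ↥A) : ↥A → ℂ)) he
    apply Subtype.ext
    apply Subtype.ext
    funext g
    obtain ⟨a, n, hn', rfl⟩ := hdec g
    rw [kerGe_mul β hβ.2.2 _ n hn', kerGe_mul β' hβ'.2.2 _ n hn']
    exact congrFun he' a
  · rintro ⟨α, hd, htw, hk⟩
    have hker : ∀ n ∈ π.ker, (α : ↥A → ℂ) n = (α : ↥A → ℂ) 1 := by
      intro n hn'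
      apply hk
      rw [MonoidHom.mem_ker, hπ] at hn'
      have h1 : ι n ∈ M.subgroupOf (A ⊔ M) := (QuotientGroup.eq_one_iff _).1 hn'
      rw [Subgroup.mem_subgroupOf, hι] at h1
      exact ⟨n.2, h1⟩
    obtain ⟨α', hα'⟩ := Cfsg.Agent.Lib.Helper82Quot.exists_deflate π.ker α hker
    set e := QuotientGroup.quotientKerEquivOfSurjective π hsurj with he
    set β : IrrCharacter ↥(A ⊔ M) := Cfsg.Agent.Lib.Helper82Quot.inflate (M.subgroupOf (A ⊔ M))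
      (Cfsg.Agent.Lib.Helper82Quot.irrCongr e α') with hβ
    have hval : ∀ a : ↥A, (β : ↥(A ⊔ M) → ℂ) (ι a) = (α : ↥A → ℂ) a := by
      intro a
      rw [hβ, Cfsg.Agent.Lib.Helper82Quot.inflate_apply, Cfsg.Agent.Lib.Helper82Quot.irrCongr_apply,
        ← hα', Cfsg.Agent.Lib.Helper82Quot.inflate_apply]
      have h1 : e.symm ((ι a : ↥(A ⊔ M)) : ↥(A ⊔ M) ⧸ M.subgroupOf (A ⊔ M))
          = ((a : ↥A) : ↥A ⧸ π.ker) := by
        rw [MulEquiv.symm_apply_eq]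
        exact (hπ a).symm
      rw [h1]
    have hkβ : KerGe (A ⊔ M) M (β : ↥(A ⊔ M) → ℂ) := fun g hg =>
      Cfsg.Agent.Lib.Helper82Quot.inflate_ker _ _ hg
    have hβS : β ∈ SS (A ⊔ M) M ν := by
      refine ⟨?_, ?_, hkβ⟩
      · have : charDegree (β : ↥(A ⊔ M) → ℂ) = charDegree (α : ↥A → ℂ) := by
          unfold charDegree
          rw [← hone, hval]
        rw [this]; exact hd
      · intro g
        obtain ⟨a, n, hn', rfl⟩ := hdec g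
        rw [kerGe_mul β hkβ _ n hn', hval, htw a, Subgroup.coe_mul,
          hν.2 _ (ι a).2 _ n.2, hM (n : Γ) hn', mul_one, hι]
    refine ⟨⟨β, hβS⟩, ?_⟩
    apply Subtype.ext
    apply Subtype.ext
    funext a
    exact hval a

end Cfsg.Agent.Lib.H79ROSsSup
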