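import Mathlib
import Cfsg.Agent.Lib.H79RODefs
import Cfsg.Agent.Lib.H79ROBasic
import Cfsg.Agent.Lib.H79ROTExtOdd

set_option autoImplicit false

/-! PROJECT 79 = RO (row S4581), piece `TCfix` (layer 3, est. 75m).  Overview: notes/helper79/RO/README.md.
You may import any landed library and any RO piece of a LOWER layer (already imported below).
Keep file name, namespace, theorem names and statements; extra private-style helper lemmas are fine.

SKETCH.  For m ∈ M let c = product (a List/`Finset.noncommProd`-free way: `((Finset.univ : Finset ↥P).toList.map fun p => (p:Γ)*m*(p:Γ)⁻¹).prod`) ∈ M.  For EVERY θ' linear on M and trivial on L: θ'(c) = Π_p θ'(pmp⁻¹) (product in ℂ), hence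
θ'(p₀cp₀⁻¹) = θ'(c) by reindexing, so p₀cp₀⁻¹c⁻¹ ∈ L (otherwise separate it from L by some θ', M/L abelian, as in TSep/TExInv).  So c normalizes P ⊔ L (c⁻¹pc ∈ pL, c ∈ X normalizes L): c ∈ NN X P L ≤ P ⊔ L, so c ∈ (P⊔L) ⊓ M = L (TExtOdd.sup_inf_eq).
Then 1 = θ(c) = θ(m)^|P| (θ is P-invariant), and θ(m)^q = 1; gcd = 1. -/

namespace Cfsg.Agent.Lib.H79ROTCfix

open Cfsg Cfsg.Agent.Lib.H79RODefs Cfsg.Agent.Lib.H79ROBasic
open Cfsg.Agent.Lib.H79ROTExtOdd
open scoped Classical ComplexConjugate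

variable {Γ : Type*} [Group Γ] [Fintype Γ]

omit [Fintype Γ] in
theorem perm_prod {L M : Subgroup Γ} (hnL : M ≤ Subgroup.normalizer (L : Set Γ))
    (hcomm : ∀ a ∈ M, ∀ b ∈ M, a * b * a⁻¹ * b⁻¹ ∈ L) {l₁ l₂ : List Γ} (h : l₁.Perm l₂) :
    (∀ x ∈ l₁, x ∈ M) → l₁.prod * l₂.prod⁻¹ ∈ L := by
  induction h with
  | nil => intro _; simp
  | cons x _ ih =>
    intro hM
    have h1 := ih (fun y hy => hM y (List.mem_cons_of_mem _ hy))
    have hx : x ∈ M := hM x List.mem_cons_self
    have h2 := (Subgroup.mem_normalizer_iff.mp (hnL hx) _).mp h1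
    rw [List.prod_cons, List.prod_cons]
    convert h2 using 1
    group
  | swap x y l =>
    intro hM
    have hy : y ∈ M := hM y List.mem_cons_self
    have hx : x ∈ M := hM x (List.mem_cons_of_mem _ List.mem_cons_self)
    have h2 := hcomm y hy x hx
    rw [List.prod_cons, List.prod_cons, List.prod_cons, List.prod_cons]
    convert h2 using 1
    group
  | trans h₁ _ ih₁ ih₂ =>
    intro hM
    have h1 := ih₁ hM
    have h2 := ih₂ (fun x hx => hM x (h₁.symm.subset hx))
    convert L.mul_mem h1 h2 using 1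
    group

omit [Fintype Γ] in
theorem lin_list_prod {M : Subgroup Γ} {θ : Γ → ℂ} (hθ : IsLin M θ) (l : List Γ) :
    (∀ x ∈ l, x ∈ M) → l.prod ∈ M ∧ θ l.prod = (l.map θ).prod := by
  induction l with
  | nil => intro _; exact ⟨M.one_mem, by simpa using hθ.1⟩
  | cons x l ih =>
    intro hM
    obtain ⟨h1, h2⟩ := ih (fun y hy => hM y (List.mem_cons_of_mem _ hy))
    have hx : x ∈ M := hM x List.mem_cons_self
    rw [List.prod_cons, List.map_cons, List.prod_cons]
    exact ⟨M.mul_mem hx h1, by rw [hθ.2 x hx _ h1, h2]⟩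

theorem mem_normalizer_of_conj_mem (H : Subgroup Γ) (c : Γ) (h : ∀ x ∈ H, c * x * c⁻¹ ∈ H) :
    c ∈ Subgroup.normalizer (H : Set Γ) := by
  rw [Subgroup.mem_normalizer_iff]
  intro x
  refine ⟨h x, fun hx => ?_⟩
  let f : H → H := fun y => ⟨c * y * c⁻¹, h y y.2⟩
  have hinj : Function.Injective f := by
    intro a b hab
    have h1 : c * (a : Γ) * c⁻¹ = c * (b : Γ) * c⁻¹ := congrArg Subtype.val hab
    apply Subtype.ext
    simpa using h1
  obtain ⟨y, hy⟩ := Finite.surjective_of_injective hinj ⟨_, hx⟩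
  have h1 : c * (y : Γ) * c⁻¹ = c * x * c⁻¹ := congrArg Subtype.val hy
  have h2 : (y : Γ) = x := by simpa using h1
  exact h2 ▸ y.2

theorem triv_of_inv_sn {X L M P : Subgroup Γ} {q : ℕ} {θ : Γ → ℂ} (hc : Cfg X L P)
    (hs : Sec X L M q) (hq : q ≠ 2) (hsn : SN X P L) (hθ : IsLin M θ) (hL : Triv L θ)
    (hi : Inv P M θ) : Triv M θ := by
  intro m hm
  have hPX : P ≤ X := hc.syl.1
  have hMN : M ≤ Subgroup.normalizer (L : Set Γ) := hs.leX.trans hs.normL
  let F : ↥P → Γ := fun p => (p : Γ) * m * (p : Γ)⁻¹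
  have hF : ∀ p : ↥P, F p ∈ M := fun p =>
    (Subgroup.mem_normalizer_iff.mp (hs.norm (hPX p.2)) m).mp hm
  let l : List Γ := (Finset.univ : Finset ↥P).toList.map F
  have hl : ∀ x ∈ l, x ∈ M := by
    intro x hx
    obtain ⟨p, -, rfl⟩ := List.mem_map.1 hx
    exact hF p
  obtain ⟨hcM, hθc⟩ := lin_list_prod hθ l hl
  -- commutators with P lie in L
  have hcomm : ∀ p₀ ∈ P, p₀ * l.prod * p₀⁻¹ * l.prod⁻¹ ∈ L := by
    intro p₀ hp₀
    have e1 : p₀ * l.prod * p₀⁻¹ = (l.map (fun x => p₀ * x * p₀⁻¹)).prod := by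
      have := map_list_prod (MulAut.conj p₀).toMonoidHom l
      exact this
    have e2 : l.map (fun x => p₀ * x * p₀⁻¹) =
        ((Finset.univ : Finset ↥P).toList.map (fun p => (⟨p₀, hp₀⟩ : ↥P) * p)).map F := by
      rw [List.map_map, List.map_map]
      apply List.map_congr_left
      intro p _
      simp only [Function.comp, F, Subgroup.coe_mul]
      group
    have hperm : ((Finset.univ : Finset ↥P).toList.map (fun p => (⟨p₀, hp₀⟩ : ↥P) * p)).Perm
        (Finset.univ : Finset ↥P).toList := by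
      rw [List.perm_ext_iff_of_nodup
        (List.Nodup.map (mul_right_injective _) (Finset.nodup_toList _)) (Finset.nodup_toList _)]
      intro a
      simp only [List.mem_map, Finset.mem_toList, Finset.mem_univ, true_and, iff_true]
      exact ⟨(⟨p₀, hp₀⟩ : ↥P)⁻¹ * a, by group⟩
    have hperm2 := hperm.map F
    rw [e1, e2]
    apply perm_prod hMN hs.comm hperm2
    intro x hx
    obtain ⟨p, -, rfl⟩ := List.mem_map.1 hx
    exact hF p
  -- c normalises P ⊔ L
  have hcN : l.prod ∈ Subgroup.normalizer ((P ⊔ L : Subgroup Γ) : Set Γ) := by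
    apply mem_normalizer_of_conj_mem
    have : P ⊔ L ≤ (P ⊔ L).comap (MulAut.conj l.prod).toMonoidHom := by
      apply sup_le
      · intro p hp
        rw [Subgroup.mem_comap]
        show l.prod * p * l.prod⁻¹ ∈ P ⊔ L
        have h1 := L.inv_mem (hcomm p hp)
        have e : l.prod * p * l.prod⁻¹ = (p * l.prod * p⁻¹ * l.prod⁻¹)⁻¹ * p := by group
        rw [e]
        exact (P ⊔ L).mul_mem ((le_sup_right : L ≤ P ⊔ L) h1) ((le_sup_left : P ≤ P ⊔ L) hp)
      · intro x hx
        rw [Subgroup.mem_comap]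
        show l.prod * x * l.prod⁻¹ ∈ P ⊔ L
        exact (le_sup_right : L ≤ P ⊔ L) ((Subgroup.mem_normalizer_iff.mp (hMN hcM) x).mp hx)
    intro x hx
    exact this hx
  have hcPL : l.prod ∈ P ⊔ L := hsn ⟨hs.leX hcM, hcN⟩
  have hcL : l.prod ∈ L := by
    rw [← sup_inf_eq hc hs hq]
    exact ⟨hcPL, hcM⟩
  have h1 : θ m ^ Nat.card ↥P = 1 := by
    have e : (l.map θ).prod = θ m ^ (l.map θ).length := by
      apply List.prod_eq_pow_card
      intro x hx
      obtain ⟨y, hy, rfl⟩ := List.mem_map.1 hx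
      obtain ⟨p, -, rfl⟩ := List.mem_map.1 hy
      exact hi p p.2 m hm
    rw [← hθc, hL _ hcL] at e
    rw [e]
    congr 1
    simp [l, Nat.card_eq_fintype_card]
  have h2 : θ m ^ q = 1 := by
    obtain ⟨-, h⟩ := lin_list_prod hθ (List.replicate q m) (fun x hx => by
      rw [List.eq_of_mem_replicate hx]; exact hm)
    rw [List.prod_replicate, List.map_replicate, List.prod_replicate] at h
    rw [← h]
    exact hL _ (hs.pow m hm)
  have : Fact (Nat.Prime 2) := ⟨Nat.prime_two⟩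
  obtain ⟨k, hk⟩ := (IsPGroup.iff_card).1 hc.syl.2.1
  have hcop : Nat.Coprime (Nat.card ↥P) q := by
    rw [hk]
    apply Nat.Coprime.pow_left
    exact (Nat.coprime_primes Nat.prime_two hs.prime).2 (Ne.symm hq)
  have h3 := pow_gcd_eq_one.2 ⟨h1, h2⟩
  rw [hcop, pow_one] at h3
  exact h3

end Cfsg.Agent.Lib.H79ROTCfix
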