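import Mathlib
import Cfsg.Agent.Lib.H79RODefs
import Cfsg.Agent.Lib.H79ROBasic
import Cfsg.Agent.Lib.Helper82Quot

set_option autoImplicit false

/-! PROJECT 79 = RO (row S4581), piece `TKer` (layer 1).  Overview: notes/helper79/RO/README.md. -/

namespace Cfsg.Agent.Lib.H79ROTKer

open Cfsg Cfsg.Agent.Lib.H79RODefs Cfsg.Agent.Lib.H79ROBasic
open scoped Classical ComplexConjugate

variable {Γ : Type*} [Group Γ] [Fintype Γ]

theorem kerGe_mul {X M : Subgroup Γ} (β : IrrCharacter ↥X) (h : KerGe X M (β : ↥X → ℂ))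
    (g k : ↥X) (hk : (k : Γ) ∈ M) : (β : ↥X → ℂ) (g * k) = (β : ↥X → ℂ) g :=
  Cfsg.Agent.Lib.Helper82Quot.char_mul_of_mem_ker
    (Cfsg.Agent.Lib.Helper4Char.IsIrrCharacter.isCharacter β.2) g (h k hk)

end Cfsg.Agent.Lib.H79ROTKer
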