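import Mathlib
import Cfsg.Agent.Lib.H79RODefs
import Cfsg.Agent.Lib.H79ROBasic
import Cfsg.Agent.Lib.H79ROChief
import Cfsg.Agent.Lib.H79ROIdx
import Cfsg.Agent.Lib.H79RONNSup
import Cfsg.Agent.Lib.H79ROLeSup
import Cfsg.Agent.Lib.H79ROEaUp
import Cfsg.Agent.Lib.H79ROPartition
import Cfsg.Agent.Lib.H79ROEaBot
import Cfsg.Agent.Lib.H79ROTLin
import Cfsg.Agent.Lib.H79ROTInd
import Cfsg.Agent.Lib.H79ROTSep
import Cfsg.Agent.Lib.H79ROTExtOdd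
import Cfsg.Agent.Lib.H79ROTKer
import Cfsg.Agent.Lib.H79ROTSylTriv
import Cfsg.Agent.Lib.H79ROTClf
import Cfsg.Agent.Lib.H79ROTHmg
import Cfsg.Agent.Lib.H79ROTTrans
import Cfsg.Agent.Lib.H79ROTExOdd
import Cfsg.Agent.Lib.H79ROTExInv
import Cfsg.Agent.Lib.H79ROTrivOdd
import Cfsg.Agent.Lib.H79ROOverConj
import Cfsg.Agent.Lib.H79ROTop
import Cfsg.Agent.Lib.H79ROSub
import Cfsg.Agent.Lib.H79ROSelf
import Cfsg.Agent.Lib.H79ROTwistCard
import Cfsg.Agent.Lib.H79ROTOverTw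
import Cfsg.Agent.Lib.H79ROTFour
import Cfsg.Agent.Lib.H79ROTLinCons
import Cfsg.Agent.Lib.H79ROTCfix
import Cfsg.Agent.Lib.H79ROCover
import Cfsg.Agent.Lib.H79ROFusion
import Cfsg.Agent.Lib.H79ROSsOdd
import Cfsg.Agent.Lib.H79ROSsSup
import Cfsg.Agent.Lib.H79ROSsEmpty
import Cfsg.Agent.Lib.H79ROExt
import Cfsg.Agent.Lib.H79ROCliffCard

set_option autoImplicit false

/-! PROJECT 79 = RO (row S4581), piece `EeOdd` (layer 4, est. 100m).  Overview: notes/helper79/RO/README.md.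
You may import any landed library and any RO piece of a LOWER layer (already imported below).
Keep file name, namespace, theorem names and statements; extra private-style helper lemmas are fine.

SKETCH.  κ linear on P⊔L trivial on L.  TExtOdd.res_lin: κ₁ on P⊔M, trivial on M, = κ on P⊔L.  EE X M P gives β.  KerGe X L from KerGe X M; Over X (P⊔L) κ β by over_trans + over_congr.  Uniqueness: let κ₂ be linear on P⊔L with Over X (P⊔L) κ₂ β.  κ₂ is trivial on L (over_trans to L; β = β(1) on L; so Σ_L conj κ₂ ≠ 0; translate).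
res_lin: κ₃ on P⊔M, trivial on M, = κ₂ on P⊔L.  Claim Over X (P⊔M) κ₃ β: f(g) = β(g) conj(κ₃ g) satisfies f(gm) = f(g) for m ∈ M (TKer.kerGe_mul), and the map (P⊔L) × M → P⊔M, (g,m) ↦ gm is onto with all fibres of size |(P⊔L) ⊓ M| = |L|, so |L| Σ_{P⊔M} f = |M| Σ_{P⊔L} f ≠ 0.  By uniqueness for β on P⊔M, κ₃ = κ₁, so κ₂ = κ on P⊔L. -/

namespace Cfsg.Agent.Lib.H79ROEeOdd

open Cfsg Cfsg.Agent.Lib.H79RODefs Cfsg.Agent.Lib.H79ROBasic
open Cfsg.Agent.Lib.H79ROChief Cfsg.Agent.Lib.H79ROIdx Cfsg.Agent.Lib.H79RONNSup Cfsg.Agent.Lib.H79ROLeSup Cfsg.Agent.Lib.H79ROEaUp Cfsg.Agent.Lib.H79ROPartition Cfsg.Agent.Lib.H79ROEaBot Cfsg.Agent.Lib.H79ROTLin Cfsg.Agent.Lib.H79ROTInd Cfsg.Agent.Lib.H79ROTSep Cfsg.Agent.Lib.H79ROTExtOdd Cfsg.Agent.Lib.H79ROTKer Cfsg.Agent.Lib.H79ROTSylTriv Cfsg.Agent.Lib.H79ROTClf Cfsg.Agent.Lib.H79ROTHmg Cfsg.Agent.Lib.H79ROTTrans Cfsg.Agent.Lib.H79ROTExOdd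 Cfsg.Agent.Lib.H79ROTExInv Cfsg.Agent.Lib.H79ROTrivOdd Cfsg.Agent.Lib.H79ROOverConj Cfsg.Agent.Lib.H79ROTop Cfsg.Agent.Lib.H79ROSub Cfsg.Agent.Lib.H79ROSelf Cfsg.Agent.Lib.H79ROTwistCard Cfsg.Agent.Lib.H79ROTOverTw Cfsg.Agent.Lib.H79ROTFour Cfsg.Agent.Lib.H79ROTLinCons Cfsg.Agent.Lib.H79ROTCfix Cfsg.Agent.Lib.H79ROCover Cfsg.Agent.Lib.H79ROFusion Cfsg.Agent.Lib.H79ROSsOdd Cfsg.Agent.Lib.H79ROSsSup Cfsg.Agent.Lib.H79ROSsEmpty Cfsg.Agent.Lib.H79ROExt Cfsg.Agent.Lib.H79ROCliffCard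
open scoped Classical ComplexConjugate

variable {Γ : Type*} [Group Γ] [Fintype Γ]

theorem sum_ne_zero_of {G : Type*} [Group G] [Fintype G] (K0 Mm K : Subgroup G) (h0 : K0 ≤ K)
    (h1 : Mm ≤ K) (hdec : ∀ k ∈ K, ∃ g ∈ K0, ∃ m ∈ Mm, g * m = k) (f : G → ℂ)
    (hf : ∀ k ∈ K, ∀ m ∈ Mm, f (k * m) = f k)
    (hne : ∑ k, (if k ∈ K0 then f k else 0) ≠ 0) : ∑ k, (if k ∈ K then f k else 0) ≠ 0 := by
  intro hzero
  obtain ⟨c, hc⟩ : ∃ c : ℂ, c = ∑ m : G, (if m ∈ Mm ∧ m ∈ K0 then 1 else 0) := ⟨_, rfl⟩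
  have hA : ∀ k : G, (∑ m : G, if k ∈ K ∧ m ∈ Mm ∧ k * m ∈ K0 then f (k * m) else 0)
      = (if k ∈ K then f k else 0) * c := by
    intro k
    by_cases hk : k ∈ K
    · obtain ⟨g, hg, m0, hm0, rfl⟩ := hdec k hk
      obtain ⟨F, hF⟩ : ∃ F : G → ℂ, ∀ m, F m = f (g * m0) * (if m ∈ Mm ∧ m ∈ K0 then 1 else 0) :=
        ⟨_, fun _ => rfl⟩
      have hre : ∑ m, F (m0 * m) = ∑ m, F m := Equiv.sum_comp (Equiv.mulLeft m0) F
      rw [if_pos hk, hc, Finset.mul_sum, ← Finset.sum_congr rfl (fun m _ => hF m), ← hre]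
      apply Finset.sum_congr rfl
      intro m _
      rw [hF]
      have e1 : m0 * m ∈ Mm ↔ m ∈ Mm := Subgroup.mul_mem_cancel_left _ hm0
      have e2 : g * m0 * m ∈ K0 ↔ m0 * m ∈ K0 := by
        rw [mul_assoc]; exact Subgroup.mul_mem_cancel_left _ hg
      by_cases hm : m ∈ Mm ∧ m0 * m ∈ K0
      · rw [if_pos ⟨hk, hm.1, e2.2 hm.2⟩, if_pos ⟨e1.2 hm.1, hm.2⟩, mul_one, hf _ hk _ hm.1]
      · rw [if_neg (fun hh => hm ⟨hh.2.1, e2.1 hh.2.2⟩), if_neg (fun hh => hm ⟨e1.1 hh.1, hh.2⟩),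
          mul_zero]
    · rw [if_neg hk, zero_mul]
      apply Finset.sum_eq_zero
      intro m _
      rw [if_neg (fun hh => hk hh.1)]
  have hB : ∀ m : G, (∑ k : G, if k ∈ K ∧ m ∈ Mm ∧ k * m ∈ K0 then f (k * m) else 0)
      = (if m ∈ Mm then 1 else 0) * ∑ k, (if k ∈ K0 then f k else 0) := by
    intro m
    by_cases hm : m ∈ Mm
    · obtain ⟨F, hF⟩ : ∃ F : G → ℂ, ∀ k, F k = (if k ∈ K0 then f k else 0) := ⟨_, fun _ => rfl⟩
      have hre : ∑ k, F (k * m) = ∑ k, F k := Equiv.sum_comp (Equiv.mulRight m) F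
      rw [if_pos hm, one_mul, ← Finset.sum_congr rfl (fun k _ => hF k), ← hre]
      apply Finset.sum_congr rfl
      intro k _
      rw [hF]
      by_cases hk : k * m ∈ K0
      · have hkK : k ∈ K := (Subgroup.mul_mem_cancel_right _ (h1 hm)).1 (h0 hk)
        rw [if_pos ⟨hkK, hm, hk⟩, if_pos hk]
      · rw [if_neg (fun hh => hk hh.2.2), if_neg hk]
    · rw [if_neg hm, zero_mul]
      apply Finset.sum_eq_zero
      intro k _
      rw [if_neg (fun hh => hm hh.2.1)]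
  have hswap : (∑ k : G, ∑ m : G, if k ∈ K ∧ m ∈ Mm ∧ k * m ∈ K0 then f (k * m) else 0)
      = ∑ m : G, ∑ k : G, if k ∈ K ∧ m ∈ Mm ∧ k * m ∈ K0 then f (k * m) else 0 := Finset.sum_comm
  rw [Finset.sum_congr rfl (fun k _ => hA k), Finset.sum_congr rfl (fun m _ => hB m),
    ← Finset.sum_mul, ← Finset.sum_mul, hzero, zero_mul] at hswap
  have hcard : (∑ m : G, (if m ∈ Mm then (1 : ℂ) else 0)) ≠ 0 := by
    rw [Finset.sum_boole]
    have : 0 < (Finset.univ.filter (fun m : G => m ∈ Mm)).card :=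
      Finset.card_pos.2 ⟨1, by simp [Mm.one_mem]⟩
    exact_mod_cast this.ne'
  exact (mul_ne_zero hcard hne) hswap.symm

theorem triv_of_over {X L K : Subgroup Γ} {κ : Γ → ℂ} (hLK : L ≤ K) (hκ : IsLin K κ)
    (β : IrrCharacter ↥X) (hker : KerGe X L (β : ↥X → ℂ)) (hLX : L ≤ X)
    (ho : Over X L κ (β : ↥X → ℂ)) : Triv L κ := by
  intro l0 hl0
  unfold Over at ho
  have hS : (∑ g : ↥X, if (g : Γ) ∈ L then (β : ↥X → ℂ) g * conj (κ g) else 0)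
      = (∑ g : ↥X, if (g : Γ) ∈ L then (β : ↥X → ℂ) g * conj (κ g) else 0) * conj (κ l0) := by
    obtain ⟨F, hF⟩ : ∃ F : ↥X → ℂ, ∀ g : ↥X,
        F g = (if (g : Γ) ∈ L then (β : ↥X → ℂ) g * conj (κ g) else 0) := ⟨_, fun _ => rfl⟩
    have hre : ∑ g, F (g * (⟨l0, hLX hl0⟩ : ↥X)) = ∑ g, F g :=
      Equiv.sum_comp (Equiv.mulRight (⟨l0, hLX hl0⟩ : ↥X)) F
    rw [Finset.sum_mul]
    conv_lhs => rw [← Finset.sum_congr rfl (fun g _ => hF g), ← hre]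
    apply Finset.sum_congr rfl
    intro g _
    rw [hF, Subgroup.coe_mul]
    have e1 : (g : Γ) * l0 ∈ L ↔ (g : Γ) ∈ L := Subgroup.mul_mem_cancel_right _ hl0
    by_cases hg : (g : Γ) ∈ L
    · rw [if_pos (e1.2 hg), if_pos hg, kerGe_mul β hker g _ hl0, hκ.2 _ (hLK hg) _ (hLK hl0), map_mul,
        mul_assoc]
    · rw [if_neg (fun hh => hg (e1.1 hh)), if_neg hg, zero_mul]
  have h1 : conj (κ l0) = 1 := by
    have h2 : (∑ g : ↥X, if (g : Γ) ∈ L then (β : ↥X → ℂ) g * conj (κ g) else 0) * 1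
        = (∑ g : ↥X, if (g : Γ) ∈ L then (β : ↥X → ℂ) g * conj (κ g) else 0) * conj (κ l0) := by
      rw [mul_one]; exact hS
    exact (mul_left_cancel₀ ho h2).symm
  have := congrArg conj h1
  simpa using this

theorem ee_step_odd {X L M P : Subgroup Γ} {q : ℕ} (hc : Cfg X L P) (hs : Sec X L M q)
    (hq : q ≠ 2) (hE : EE X M P) : EE X L P := by
  intro κ hκ hL
  obtain ⟨κ₁, h1, h2, h3⟩ := res_lin hc hs hq hκ hL
  obtain ⟨β, hodd, hker, ho, huniq⟩ := hE κ₁ h1 h2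
  have hPX : P ≤ X := hc.syl.1
  have hle : P ⊔ L ≤ P ⊔ M := sup_le_sup_left hs.le P
  have hPMX : P ⊔ M ≤ X := sup_le hPX hs.leX
  have hkerL : KerGe X L (β : ↥X → ℂ) := fun g hg => hker g (hs.le hg)
  refine ⟨β, hodd, hkerL, ?_, ?_⟩
  · exact over_congr (fun g hg => (h3 g hg).symm) _ (over_trans hle hPMX h1 β ho)
  · intro κ₂ hκ₂ ho₂ g hg
    have hL₂ : Triv L κ₂ := triv_of_over le_sup_right hκ₂ β hkerL hc.le
      (over_trans le_sup_right (hle.trans hPMX) hκ₂ β ho₂)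
    obtain ⟨κ₃, k1, k2, k3⟩ := res_lin hc hs hq hκ₂ hL₂
    have ho₃ : Over X (P ⊔ L) κ₃ (β : ↥X → ℂ) := over_congr k3 _ ho₂
    have hN : (M.subgroupOf X).Normal := Subgroup.normal_subgroupOf_of_le_normalizer hs.norm
    have hclaim : Over X (P ⊔ M) κ₃ (β : ↥X → ℂ) := by
      refine sum_ne_zero_of ((P ⊔ L).subgroupOf X) (M.subgroupOf X) ((P ⊔ M).subgroupOf X)
        (fun x hx => hle hx) (fun x hx => (le_sup_right : M ≤ P ⊔ M) hx) ?_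
        (fun x : ↥X => (β : ↥X → ℂ) x * conj (κ₃ x)) ?_ ho₃
      · intro k hk
        have e : (P ⊔ M).subgroupOf X = (P ⊔ L).subgroupOf X ⊔ M.subgroupOf X := by
          rw [← Subgroup.subgroupOf_sup (hle.trans hPMX) hs.leX, sup_assoc, sup_eq_right.2 hs.le]
        rw [e] at hk
        exact Subgroup.mem_sup_of_normal_right.1 hk
      · intro k hk m hm
        rw [kerGe_mul β hker k m hm, Subgroup.coe_mul,
          k1.2 (k : Γ) hk (m : Γ) ((le_sup_right : M ≤ P ⊔ M) hm), k2 (m : Γ) hm, mul_one]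
    rw [← k3 g hg, huniq κ₃ k1 hclaim g (hle hg), h3 g hg]

end Cfsg.Agent.Lib.H79ROEeOdd
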