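import Mathlib
import Cfsg.Agent.Lib.H79RODefs
import Cfsg.Agent.Lib.H79ROBasic
import Cfsg.Agent.Lib.H79ROIdx
import Cfsg.Agent.Lib.H79ROLeSup
import Cfsg.Agent.Lib.H79ROTLin
import Cfsg.Agent.Lib.H79ROTInd
import Cfsg.Agent.Lib.H79ROTClf
import Cfsg.Agent.Lib.H79ROTHmg
import Cfsg.Agent.Lib.H79ROTTrans
import Cfsg.Agent.Lib.H79ROTExOdd
import Cfsg.Agent.Lib.H79ROTOverTw
import Cfsg.Agent.Lib.H79ROTLinCons
import Cfsg.Agent.Lib.H79ROFusion
import Cfsg.Agent.Lib.H79ROExt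

set_option autoImplicit false

/-! PROJECT 79 = RO (row S4581), piece `EeTwo` (layer 4, est. 120m).  Overview: notes/helper79/RO/README.md.
You may import any landed library and any RO piece of a LOWER layer (already imported below).
Keep file name, namespace, theorem names and statements; extra private-style helper lemmas are fine.

SKETCH.  κ linear on K := P⊔L, trivial on L.  M ≤ K (LeSup), so P⊔M = K.  lam := κ on M: linear, trivial on L, invariant under K (Basic.isLin_conj_eq), lam² = 1.  T = stab X M lam ⊇ K.  TExOdd.exists_odd_over (K ≤ T odd index): ψ₀ ∈ Irr(T) odd over κ, so over lam (over_trans), so Hmg (THmg.hmg_of_over, Basic.inv_stab).  Ext.exists_ext (W = Y = T): μ linear on T extending lam.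
κ₁ = conj(μ)κ is linear on P⊔M and trivial on M.  hIH lam: ψ₁ ∈ Irr(T) odd, M ≤ ker, κ₁ its unique linear constituent on P⊔M.  ψ = μψ₁ (TLin.isIrr_mul): Hmg over lam; κ is a constituent (TOverTw.over_twist).  β = indA ψ: irreducible (TClf.clf_irr), odd degree, L ≤ ker (over lam, over_trans to L, kerGe_of_over), Over X K κ β (TLinCons.lincons_up).
Uniqueness: κ' linear on K under β.  lam' = κ' on M is under β, P-invariant; Fusion.fusion: lam' = lam∘conj(n), n ∈ N_X(P) ≤ NN X P L ≤ K ≤ T (SN), so lam' = lam on M.  TLinCons.lincons_down: κ' under ψ; over_twist_conj: conj(μ)κ' under ψ₁ (conj μ·μ = 1); uniqueness: conj(μ)κ' = κ₁ on K, so κ' = κ. -/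

namespace Cfsg.Agent.Lib.H79ROEeTwo

open Cfsg Cfsg.Agent.Lib.H79RODefs Cfsg.Agent.Lib.H79ROBasic
open Cfsg.Agent.Lib.H79ROIdx Cfsg.Agent.Lib.H79ROLeSup Cfsg.Agent.Lib.H79ROTLin Cfsg.Agent.Lib.H79ROTInd Cfsg.Agent.Lib.H79ROTClf Cfsg.Agent.Lib.H79ROTHmg Cfsg.Agent.Lib.H79ROTTrans Cfsg.Agent.Lib.H79ROTExOdd Cfsg.Agent.Lib.H79ROTOverTw Cfsg.Agent.Lib.H79ROTLinCons Cfsg.Agent.Lib.H79ROFusion Cfsg.Agent.Lib.H79ROExt
open scoped Classical ComplexConjugate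

variable {Γ : Type*} [Group Γ] [Fintype Γ]

theorem isLin_conj_mul_aux {K W : Subgroup Γ} {μ κ : Γ → ℂ} (hKW : K ≤ W) (hμ : IsLin W μ)
    (hκ : IsLin K κ) : IsLin K (fun g => conj (μ g) * κ g) := by
  refine ⟨by simp [hμ.1, hκ.1], fun a ha b hb => ?_⟩
  simp only [hμ.2 a (hKW ha) b (hKW hb), hκ.2 a ha b hb, map_mul]
  ring

theorem ee_step_two {X L M P : Subgroup Γ} (hc : Cfg X L P) (hs : Sec X L M 2)
    (hsn : SN X P L)
    (hIH : ∀ lam : Γ → ℂ, IsLin M lam → Triv L lam → Inv P M lam → EE (stab X M lam) M P) :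
    EE X L P := by
  intro κ hκ hκL
  have hPX : P ≤ X := hc.syl.1
  have hMK : M ≤ P ⊔ L := le_sup_of_two hc hs
  have hKX : P ⊔ L ≤ X := sup_le hPX hc.le
  have hPK : P ≤ P ⊔ L := le_sup_left
  have hPM : P ⊔ M = P ⊔ L :=
    le_antisymm (sup_le le_sup_left hMK) (sup_le le_sup_left (hs.le.trans le_sup_right))
  have hl : IsLin M κ := isLin_mono hκ hMK
  have hiK : Inv (P ⊔ L) M κ := fun p hp m hm => isLin_conj_eq hκ hp (hMK hm)
  have hi : Inv P M κ := fun p hp m hm => hiK p (hPK hp) m hm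
  have hsq := sq_of_sec hs hl hκL
  have hKT : P ⊔ L ≤ stab X M κ := le_stab_of_inv hKX hs.norm hiK
  have hTX : stab X M κ ≤ X := stab_le X M κ
  have hMT : M ≤ stab X M κ := hMK.trans hKT
  have hPT : P ≤ stab X M κ := hPK.trans hKT
  have hsylT := isSyl2_of_le hc.syl hPT hTX
  have hsylK := isSyl2_of_le hsylT.1 hPK hKT
  obtain ⟨ψ₀, hψ₀odd, hψ₀over⟩ := exists_odd_over hKT hsylK.2 hκ
  have hψ₀M : Over (stab X M κ) M κ (ψ₀ : ↥(stab X M κ) → ℂ) := over_trans hMK hKT hκ ψ₀ hψ₀over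
  have hψ₀h : Hmg (stab X M κ) M κ (ψ₀ : ↥(stab X M κ) → ℂ) :=
    hmg_of_over hMT (stab_le_normalizer X M κ) hl (inv_stab X M κ) ψ₀ hψ₀M
  obtain ⟨μ, hμ, -, hμM⟩ := exists_ext hMT le_rfl (stab_le_normalizer X M κ)
    (by rw [Subgroup.relIndex_self]; exact odd_one) (inv_stab X M κ) hl hsq ψ₀ hψ₀odd hψ₀h
  have hκ₁ : IsLin (P ⊔ M) (fun g => conj (μ g) * κ g) := by
    rw [hPM]; exact isLin_conj_mul_aux hKT hμ hκ
  have hκ₁M : Triv M (fun g => conj (μ g) * κ g) := by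
    intro m hm
    simp only
    rw [hμM m hm, mul_comm]
    exact norm_one hl hm
  obtain ⟨ψ₁, hψ₁odd, hψ₁ker, hψ₁over, hψ₁uniq⟩ := hIH κ hl hκL hi _ hκ₁ hκ₁M
  rw [hPM] at hψ₁over
  have hψirr := isIrr_mul hμ ψ₁
  obtain ⟨ψ, hψdef⟩ : ∃ ψ : IrrCharacter ↥(stab X M κ),
      (ψ : ↥(stab X M κ) → ℂ) = fun x : ↥(stab X M κ) => μ x * (ψ₁ : ↥(stab X M κ) → ℂ) x :=
    ⟨⟨_, hψirr.1⟩, rfl⟩
  have hψh : Hmg (stab X M κ) M κ (ψ : ↥(stab X M κ) → ℂ) := by
    intro g hg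
    rw [hψdef]
    simp only
    rw [hψ₁ker g hg, hμM g hg]
    have : μ ((1 : ↥(stab X M κ)) : Γ) = 1 := hμ.1
    rw [this]
    ring
  have hclf := clf_irr hs.leX hs.norm hl ψ hψh
  have hψover : Over (stab X M κ) (P ⊔ L) κ (ψ : ↥(stab X M κ) → ℂ) := by
    have h1 := over_twist hKT hμ (ψ₁ : ↥(stab X M κ) → ℂ) hψ₁over
    rw [← hψdef] at h1
    refine over_congr ?_ _ h1
    intro g hg
    rw [← mul_assoc, norm_one hμ (hKT hg), one_mul]
  refine ⟨⟨_, hclf.1⟩, ?_, ?_, ?_, ?_⟩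
  · show Odd (charDegree (indA (stab_le X M κ) (ψ : ↥(stab X M κ) → ℂ)))
    rw [charDegree_indA (stab_le X M κ) ψ hclf.1]
    refine hsylT.2.mul ?_
    rw [hψdef, hψirr.2]
    exact hψ₁odd
  · have h1 : Over X L κ (indA (stab_le X M κ) (ψ : ↥(stab X M κ) → ℂ)) :=
      over_trans hs.le hs.leX hl ⟨_, hclf.1⟩ hclf.2
    exact kerGe_of_over hc.le hc.norm (isLin_mono hl hs.le) hκL ⟨_, hclf.1⟩ h1
  · exact lincons_up hKT hTX hκ ψ hψover
  · intro κ' hκ' hover g hg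
    have hl' : IsLin M κ' := isLin_mono hκ' hMK
    have hi' : Inv P M κ' := fun p hp m hm => isLin_conj_eq hκ' (hPK hp) (hMK hm)
    have hoM : Over X M κ' (indA (stab_le X M κ) (ψ : ↥(stab X M κ) → ℂ)) :=
      over_trans hMK hKX hκ' ⟨_, hclf.1⟩ hover
    obtain ⟨n, hn, hnm⟩ := fusion hs.leX hs.norm hc.syl ⟨_, hclf.1⟩ hl hl' hi hi' hclf.2 hoM
    have hnK : n ∈ P ⊔ L := hsn (normalizer_le_nn hc.norm hn)
    have hκ'M : ∀ m ∈ M, κ' m = κ m := fun m hm => by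
      rw [hnm m hm]; exact hiK n hnK m hm
    have hdown := lincons_down hs.leX hs.norm hl hMK hKT ψ hψh hκ' hκ'M hover
    have h2 := over_twist_conj hKT hμ (ψ : ↥(stab X M κ) → ℂ) hdown
    have h3 : (fun w : ↥(stab X M κ) => conj (μ w) * (ψ : ↥(stab X M κ) → ℂ) w) =
        (ψ₁ : ↥(stab X M κ) → ℂ) := by
      funext w
      rw [hψdef]
      simp only
      rw [← mul_assoc, mul_comm (conj (μ w)), norm_one hμ w.2, one_mul]
    rw [h3] at h2
    have h4 := hψ₁uniq (fun g => conj (μ g) * κ' g)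
      (by rw [hPM]; exact isLin_conj_mul_aux hKT hμ hκ') (by rw [hPM]; exact h2) g
      (by rw [hPM]; exact hg)
    have h5 : conj (μ g) ≠ 0 := by
      intro h0
      have := norm_one hμ (hKT hg)
      rw [h0, mul_zero] at this
      exact zero_ne_one this
    exact mul_left_cancel₀ h5 h4

end Cfsg.Agent.Lib.H79ROEeTwo
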