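import Mathlib
import Cfsg.Agent.Lib.H79RODefs
import Cfsg.Agent.Lib.H79ROBasic
import Cfsg.Agent.Lib.H79ROTHmg
import Cfsg.Agent.Lib.H79ROTCfix
import Cfsg.Agent.Lib.H79ROCover

set_option autoImplicit false

/-! PROJECT 79 = RO (row S4581), piece `KerOddSn` (layer 4, est. 15m).  Overview: notes/helper79/RO/README.md.
You may import any landed library and any RO piece of a LOWER layer (already imported below).
Keep file name, namespace, theorem names and statements; extra private-style helper lemmas are fine.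

SKETCH.  Cover.cover gives lam under β, trivial on L and P-invariant; TCfix.triv_of_inv_sn: lam is trivial on M; THmg.kerGe_of_over. -/

namespace Cfsg.Agent.Lib.H79ROKerOddSn

open Cfsg Cfsg.Agent.Lib.H79RODefs Cfsg.Agent.Lib.H79ROBasic
open Cfsg.Agent.Lib.H79ROTHmg Cfsg.Agent.Lib.H79ROTCfix Cfsg.Agent.Lib.H79ROCover
open scoped Classical ComplexConjugate

variable {Γ : Type*} [Group Γ] [Fintype Γ]

theorem kerGe_of_odd_sn {X L M P : Subgroup Γ} {q : ℕ} (hc : Cfg X L P) (hs : Sec X L M q)
    (hq : q ≠ 2) (hsn : SN X P L) (β : IrrCharacter ↥X) (hodd : Odd (charDegree (β : ↥X → ℂ)))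
    (hker : KerGe X L (β : ↥X → ℂ)) : KerGe X M (β : ↥X → ℂ) := by
  obtain ⟨lam, hL, hi, ho⟩ := cover hs hc.syl β hodd hker
  have ht := triv_of_inv_sn hc hs hq hsn (isLin_amb lam) hL hi
  exact kerGe_of_over hs.leX hs.norm (isLin_amb lam) ht β ho

end Cfsg.Agent.Lib.H79ROKerOddSn
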