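import Mathlib
import Cfsg.Agent.Lib.H79RODefs
import Cfsg.Agent.Lib.H79ROBasic
import Cfsg.Agent.Lib.H79ROChief
import Cfsg.Agent.Lib.H79ROIdx
import Cfsg.Agent.Lib.H79RONNSup
import Cfsg.Agent.Lib.H79ROLeSup
import Cfsg.Agent.Lib.H79ROEaUp
import Cfsg.Agent.Lib.H79ROPartition
import Cfsg.Agent.Lib.H79ROEaBot
import Cfsg.Agent.Lib.H79ROTLin
import Cfsg.Agent.Lib.H79ROTInd
import Cfsg.Agent.Lib.H79ROTSep
import Cfsg.Agent.Lib.H79ROTExtOdd
import Cfsg.Agent.Lib.H79ROTKer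
import Cfsg.Agent.Lib.H79ROTSylTriv
import Cfsg.Agent.Lib.H79ROTClf
import Cfsg.Agent.Lib.H79ROTHmg
import Cfsg.Agent.Lib.H79ROTTrans
import Cfsg.Agent.Lib.H79ROTExOdd
import Cfsg.Agent.Lib.H79ROTExInv
import Cfsg.Agent.Lib.H79ROTrivOdd
import Cfsg.Agent.Lib.H79ROOverConj
import Cfsg.Agent.Lib.H79ROTop
import Cfsg.Agent.Lib.H79ROSub
import Cfsg.Agent.Lib.H79ROSelf
import Cfsg.Agent.Lib.H79ROTwistCard
import Cfsg.Agent.Lib.H79ROTOverTw
import Cfsg.Agent.Lib.H79ROTFour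
import Cfsg.Agent.Lib.H79ROTLinCons
import Cfsg.Agent.Lib.H79ROTCfix
import Cfsg.Agent.Lib.H79ROCover
import Cfsg.Agent.Lib.H79ROFusion
import Cfsg.Agent.Lib.H79ROSsOdd
import Cfsg.Agent.Lib.H79ROSsSup
import Cfsg.Agent.Lib.H79ROSsEmpty
import Cfsg.Agent.Lib.H79ROExt
import Cfsg.Agent.Lib.H79ROCliffCard

set_option autoImplicit false

/-! PROJECT 79 = RO (row S4581), piece `RealTwo` (layer 4, est. 90m).  Overview: notes/helper79/RO/README.md.
You may import any landed library and any RO piece of a LOWER layer (already imported below).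
Keep file name, namespace, theorem names and statements; extra private-style helper lemmas are fine.

SKETCH.  β ∈ Irr(X) odd degree, L ≤ ker.  Cover.cover: lam P-invariant, trivial on L, under β; lam² = 1 (Basic.sq_of_sec).  T = stab X M lam ⊇ P, M.  TClf.clf_surj: ψ ∈ Irr(T), Hmg, ind ψ = β, ψ(1) odd.  Ext.exists_ext with W = Y = T (relIndex = 1; Basic.inv_stab): μ linear on T of 2-power order extending lam.
μ is trivial on L, so for g ∈ P ⊔ L: μ(g)² = μ(g²) = 1 because g² ∈ ⁅P⊔L,P⊔L⁆ ⊔ L (EA) and μ kills commutators and L (closure induction).  So μ² is trivial on P and has 2-power order: TSylTriv.triv_of_syl ⇒ μ² = 1 on T, so μ is real.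
ψ' = conj(μ)ψ is irreducible of odd degree with M ≤ ker (as in TwistCard), so it is real by hIH; ψ = μψ' is real; β = ind ψ is real (TInd.indA_conj). -/

namespace Cfsg.Agent.Lib.H79RORealTwo

open Cfsg Cfsg.Agent.Lib.H79RODefs Cfsg.Agent.Lib.H79ROBasic
open Cfsg.Agent.Lib.H79ROChief Cfsg.Agent.Lib.H79ROIdx Cfsg.Agent.Lib.H79RONNSup Cfsg.Agent.Lib.H79ROLeSup Cfsg.Agent.Lib.H79ROEaUp Cfsg.Agent.Lib.H79ROPartition Cfsg.Agent.Lib.H79ROEaBot Cfsg.Agent.Lib.H79ROTLin Cfsg.Agent.Lib.H79ROTInd Cfsg.Agent.Lib.H79ROTSep Cfsg.Agent.Lib.H79ROTExtOdd Cfsg.Agent.Lib.H79ROTKer Cfsg.Agent.Lib.H79ROTSylTriv Cfsg.Agent.Lib.H79ROTClf Cfsg.Agent.Lib.H79ROTHmg Cfsg.Agent.Lib.H79ROTTrans Cfsg.Agent.Lib.H79ROTExOdd Cfsg.Agent.Lib.H79ROTExInv Cfsg.Agent.Lib.H79ROTrivOdd Cfsg.Agent.Lib.H79ROOverConj Cfsg.Agent.Lib.H79ROTop Cfsg.Agent.Lib.H79ROSub Cfsg.Agent.Lib.H79ROSelf Cfsg.Agent.Lib.H79ROTwistCard Cfsg.Agent.Lib.H79ROTOverTw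 Cfsg.Agent.Lib.H79ROTFour Cfsg.Agent.Lib.H79ROTLinCons Cfsg.Agent.Lib.H79ROTCfix Cfsg.Agent.Lib.H79ROCover Cfsg.Agent.Lib.H79ROFusion Cfsg.Agent.Lib.H79ROSsOdd Cfsg.Agent.Lib.H79ROSsSup Cfsg.Agent.Lib.H79ROSsEmpty Cfsg.Agent.Lib.H79ROExt Cfsg.Agent.Lib.H79ROCliffCard
open scoped Classical ComplexConjugate

variable {Γ : Type*} [Group Γ] [Fintype Γ]

/-- the kernel of a linear character -/
def kerLin (T : Subgroup Γ) (μ : Γ → ℂ) (h : IsLin T μ) : Subgroup Γ where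
  carrier := {x | x ∈ T ∧ μ x = 1}
  one_mem' := ⟨T.one_mem, h.1⟩
  mul_mem' := by
    rintro a b ⟨ha, ha'⟩ ⟨hb, hb'⟩
    exact ⟨T.mul_mem ha hb, by rw [h.2 _ ha _ hb, ha', hb', one_mul]⟩
  inv_mem' := by
    rintro a ⟨ha, ha'⟩
    exact ⟨T.inv_mem ha, by have := isLin_inv_mul h ha; rw [ha', one_mul] at this; exact this⟩

theorem realAll_step_two {X L M P : Subgroup Γ} (hc : Cfg X L P) (hs : Sec X L M 2)
    (hea : EA P L)
    (hIH : ∀ lam : Γ → ℂ, IsLin M lam → Triv L lam → Inv P M lam → RealAll (stab X M lam) M) :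
    RealAll X L := by
  intro β hodd hker g
  obtain ⟨lam0, hL, hi, ho⟩ := cover hs hc.syl β hodd hker
  obtain ⟨lam, hlam⟩ : ∃ lam : Γ → ℂ, lam = amb lam0 := ⟨_, rfl⟩
  rw [← hlam] at hL hi ho
  have hl : IsLin M lam := hlam ▸ isLin_amb lam0
  have hsq := sq_of_sec hs hl hL
  have hPT : P ≤ stab X M lam := le_stab_of_inv hc.syl.1 hs.norm hi
  have hMT : M ≤ stab X M lam := le_stab_self hl hs.leX
  obtain ⟨ψ, hh, hind⟩ := clf_surj hs.leX hs.norm hl β ho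
  have hirr : IsIrrCharacter ↥X (indA (stab_le X M lam) (ψ : ↥(stab X M lam) → ℂ)) := by
    rw [hind]; exact β.2
  have hdψ : Odd (charDegree (ψ : ↥(stab X M lam) → ℂ)) := by
    have h1 := charDegree_indA _ ψ hirr
    rw [hind] at h1
    rw [h1] at hodd
    exact (Nat.odd_mul.1 hodd).2
  obtain ⟨μ, hμ, hμ2, hμM⟩ := exists_ext hMT le_rfl (stab_le_normalizer X M lam)
    (by rw [Subgroup.relIndex_self]; exact odd_one) (inv_stab X M lam) hl hsq ψ hdψ hh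
  have hPL : P ⊔ L ≤ stab X M lam := sup_le hPT (hs.le.trans hMT)
  have hK : ⁅P ⊔ L, P ⊔ L⁆ ⊔ L ≤ kerLin _ μ hμ := by
    apply sup_le
    · rw [Subgroup.commutator_le]
      intro a ha b hb
      have ha' := hPL ha
      have hb' := hPL hb
      refine ⟨Subgroup.commutator_mem_commutator ha' hb' |> fun h =>
        (Subgroup.commutator_le_self _) h, ?_⟩
      rw [commutatorElement_def, hμ.2 _ (Subgroup.mul_mem _ (Subgroup.mul_mem _ ha' hb')
        (Subgroup.inv_mem _ ha')) _ (Subgroup.inv_mem _ hb'),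
        hμ.2 _ (Subgroup.mul_mem _ ha' hb') _ (Subgroup.inv_mem _ ha'), hμ.2 _ ha' _ hb']
      have e1 := isLin_inv_mul hμ ha'
      have e2 := isLin_inv_mul hμ hb'
      calc μ a * μ b * μ a⁻¹ * μ b⁻¹ = (μ a * μ a⁻¹) * (μ b * μ b⁻¹) := by ring
        _ = 1 := by rw [e1, e2, one_mul]
    · intro l hl'
      exact ⟨hMT (hs.le hl'), by rw [hμM _ (hs.le hl'), hL _ hl']⟩
  have hρ : IsLin (stab X M lam) (fun g => μ g ^ 2) := by
    refine ⟨by simp [hμ.1], fun a ha b hb => ?_⟩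
    simp only [hμ.2 a ha b hb, mul_pow]
  have hρ2 : TwoPow (stab X M lam) (fun g => μ g ^ 2) := by
    obtain ⟨k, hk⟩ := hμ2
    refine ⟨k, fun a ha => ?_⟩
    simp only
    rw [← pow_mul, mul_comm, pow_mul, hk a ha, one_pow]
  have hρP : Triv P (fun g => μ g ^ 2) := by
    intro p hp
    have hp' : p ∈ P ⊔ L := Subgroup.mem_sup_left hp
    have h1 := (hK (hea p hp')).2
    simp only
    rw [pow_two, ← hμ.2 _ (hPL hp') _ (hPL hp'), ← pow_two]
    exact h1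
  have hμsq : ∀ t ∈ stab X M lam, μ t ^ 2 = 1 :=
    triv_of_syl (isSyl2_of_le hc.syl hPT (stab_le X M lam)).1 hρ hρ2 hρP
  -- the twisted character
  obtain ⟨hirr', hdeg'⟩ := isIrr_mul hμ ψ
  have hker' : KerGe (stab X M lam) M
      ((⟨_, hirr'⟩ : IrrCharacter ↥(stab X M lam)) : ↥(stab X M lam) → ℂ) := by
    intro m hm
    show μ m * (ψ : ↥(stab X M lam) → ℂ) m
      = μ ((1 : ↥(stab X M lam)) : Γ) * (ψ : ↥(stab X M lam) → ℂ) 1
    rw [hh m hm, hμM _ hm, Subgroup.coe_one, hμ.1, one_mul]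
    calc lam m * ((ψ : ↥(stab X M lam) → ℂ) 1 * lam m)
        = (ψ : ↥(stab X M lam) → ℂ) 1 * lam m ^ 2 := by ring
      _ = _ := by rw [hsq _ hm, mul_one]
  have hreal' := hIH lam hl hL hi (⟨_, hirr'⟩ : IrrCharacter ↥(stab X M lam))
    (by show Odd (charDegree (fun x : ↥(stab X M lam) => μ x * (ψ : ↥(stab X M lam) → ℂ) x))
        rw [hdeg']; exact hdψ) hker'
  have hψreal : ∀ w : ↥(stab X M lam), conj ((ψ : ↥(stab X M lam) → ℂ) w)
      = (ψ : ↥(stab X M lam) → ℂ) w := by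
    intro w
    have h1 : conj (μ w * (ψ : ↥(stab X M lam) → ℂ) w) = μ w * (ψ : ↥(stab X M lam) → ℂ) w :=
      hreal' w
    rw [map_mul, real_of_sq (hμsq _ w.2)] at h1
    have hne : μ (w : Γ) ≠ 0 := by
      intro h0
      have := hμsq _ w.2
      rw [h0] at this
      norm_num at this
    exact mul_left_cancel₀ hne h1
  rw [← hind, indA_conj]
  congr 1
  funext w
  exact hψreal w

end Cfsg.Agent.Lib.H79RORealTwo
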