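import Mathlib
import Cfsg.Agent.Lib.H79RODefs
import Cfsg.Agent.Lib.H79ROBasic
import Cfsg.Agent.Lib.H79ROChief
import Cfsg.Agent.Lib.H79ROIdx
import Cfsg.Agent.Lib.H79RONNSup
import Cfsg.Agent.Lib.H79ROLeSup
import Cfsg.Agent.Lib.H79ROEaUp
import Cfsg.Agent.Lib.H79ROPartition
import Cfsg.Agent.Lib.H79ROEaBot
import Cfsg.Agent.Lib.H79ROTLin
import Cfsg.Agent.Lib.H79ROTInd
import Cfsg.Agent.Lib.H79ROTSep
import Cfsg.Agent.Lib.H79ROTExtOdd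
import Cfsg.Agent.Lib.H79ROTKer
import Cfsg.Agent.Lib.H79ROTSylTriv
import Cfsg.Agent.Lib.H79ROTClf
import Cfsg.Agent.Lib.H79ROTHmg
import Cfsg.Agent.Lib.H79ROTTrans
import Cfsg.Agent.Lib.H79ROTExOdd
import Cfsg.Agent.Lib.H79ROTExInv
import Cfsg.Agent.Lib.H79ROTrivOdd
import Cfsg.Agent.Lib.H79ROOverConj
import Cfsg.Agent.Lib.H79ROTop
import Cfsg.Agent.Lib.H79ROSub
import Cfsg.Agent.Lib.H79ROSelf
import Cfsg.Agent.Lib.H79ROTwistCard
import Cfsg.Agent.Lib.H79ROTOverTw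
import Cfsg.Agent.Lib.H79ROTFour
import Cfsg.Agent.Lib.H79ROTLinCons
import Cfsg.Agent.Lib.H79ROTCfix
import Cfsg.Agent.Lib.H79ROCover
import Cfsg.Agent.Lib.H79ROFusion
import Cfsg.Agent.Lib.H79ROSsOdd
import Cfsg.Agent.Lib.H79ROSsSup
import Cfsg.Agent.Lib.H79ROSsEmpty
import Cfsg.Agent.Lib.H79ROExt
import Cfsg.Agent.Lib.H79ROCliffCard
import Cfsg.Agent.Lib.H79ROKerOddSn
import Cfsg.Agent.Lib.H79RORealTwo
import Cfsg.Agent.Lib.H79ROStepBOdd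
import Cfsg.Agent.Lib.H79ROEaOfEe
import Cfsg.Agent.Lib.H79ROEeOdd
import Cfsg.Agent.Lib.H79ROEeTwo

set_option autoImplicit false

namespace Cfsg.Agent.Lib.H79ROMain1

open Cfsg Cfsg.Agent.Lib.H79RODefs Cfsg.Agent.Lib.H79ROBasic
open Cfsg.Agent.Lib.H79ROChief Cfsg.Agent.Lib.H79ROIdx Cfsg.Agent.Lib.H79RONNSup Cfsg.Agent.Lib.H79ROLeSup Cfsg.Agent.Lib.H79ROEaUp Cfsg.Agent.Lib.H79ROPartition Cfsg.Agent.Lib.H79ROEaBot Cfsg.Agent.Lib.H79ROTLin Cfsg.Agent.Lib.H79ROTInd Cfsg.Agent.Lib.H79ROTSep Cfsg.Agent.Lib.H79ROTExtOdd Cfsg.Agent.Lib.H79ROTKer Cfsg.Agent.Lib.H79ROTSylTriv Cfsg.Agent.Lib.H79ROTClf Cfsg.Agent.Lib.H79ROTHmg Cfsg.Agent.Lib.H79ROTTrans Cfsg.Agent.Lib.H79ROTExOdd Cfsg.Agent.Lib.H79ROTExInv Cfsg.Agent.Lib.H79ROTrivOdd Cfsg.Agent.Lib.H79ROOverConj Cfsg.Agent.Lib.H79ROTop Cfsg.Agent.Lib.H79ROSub Cfsg.Agent.Lib.H79ROSelf Cfsg.Agent.Lib.H79ROTwistCard Cfsg.Agent.Lib.H79ROTOverTw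 Cfsg.Agent.Lib.H79ROTFour Cfsg.Agent.Lib.H79ROTLinCons Cfsg.Agent.Lib.H79ROTCfix Cfsg.Agent.Lib.H79ROCover Cfsg.Agent.Lib.H79ROFusion Cfsg.Agent.Lib.H79ROSsOdd Cfsg.Agent.Lib.H79ROSsSup Cfsg.Agent.Lib.H79ROSsEmpty Cfsg.Agent.Lib.H79ROExt Cfsg.Agent.Lib.H79ROCliffCard Cfsg.Agent.Lib.H79ROKerOddSn Cfsg.Agent.Lib.H79RORealTwo Cfsg.Agent.Lib.H79ROStepBOdd Cfsg.Agent.Lib.H79ROEaOfEe Cfsg.Agent.Lib.H79ROEeOdd Cfsg.Agent.Lib.H79ROEeTwo
open scoped Classical ComplexConjugate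

variable {Γ : Type*} [Group Γ] [Fintype Γ]

/-- the invariant case -/
theorem inv_case {X L M P : Subgroup Γ} {ν lam : Γ → ℂ} (hc : Cfg X L P) (hs : Sec X L M 2)
    (hne : L ≠ M) (hν : IsLin X ν) (h2 : TwoPow X ν) (hνM : Triv M ν)
    (hl : IsLin M lam) (hL : Triv L lam) (hi : Inv P M lam)
    (IH : ∀ (Y : Subgroup Γ) (ν' : Γ → ℂ), M.relIndex Y < L.relIndex X → Cfg Y M P → IsLin Y ν' →
      TwoPow Y ν' → Triv M ν' → Nat.card (SS Y M ν') = Nat.card (SS (NN Y P M) M ν')) :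
    Nat.card {ψ : IrrCharacter ↥(stab X M lam) //
        ψ ∈ SS (stab X M lam) L ν ∧ Hmg (stab X M lam) M lam (ψ : ↥(stab X M lam) → ℂ)} =
      Nat.card {ψ : IrrCharacter ↥(stab (NN X P L) M lam) //
        ψ ∈ SS (stab (NN X P L) M lam) L ν ∧
          Hmg (stab (NN X P L) M lam) M lam (ψ : ↥(stab (NN X P L) M lam) → ℂ)} := by
  have hMPL : M ≤ P ⊔ L := le_sup_of_two hc hs
  have hsup : P ⊔ M = P ⊔ L :=
    le_antisymm (sup_le le_sup_left hMPL) (sup_le le_sup_left (hs.le.trans le_sup_right))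
  have hsq := sq_of_sec hs hl hL
  set Y := stab X M lam with hY
  have hYX : Y ≤ X := stab_le _ _ _
  have hMY : M ≤ Y := le_stab_self hl hs.leX
  have hPY : P ≤ Y := le_stab_of_inv hc.syl.1 hs.norm hi
  have hYn : Y ≤ Subgroup.normalizer (M : Set Γ) := stab_le_normalizer _ _ _
  have hsylY := isSyl2_of_le hc.syl hPY hYX
  have hcY : Cfg Y M P := ⟨solv_of_le hYX hc.solv, hMY, hYn, hsylY.1⟩
  rw [stab_nn lam hsup]
  set W := NN Y P M with hW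
  have hWY : W ≤ Y := nn_le _ _ _
  have hPMW : P ⊔ M ≤ W := sup_le_nn hPY hMY
  have hMW : M ≤ W := le_sup_right.trans hPMW
  have hPW : P ≤ W := le_sup_left.trans hPMW
  have hoddW : Odd (W.relIndex Y) := (isSyl2_of_le hsylY.1 hPW hWY).2
  by_cases hex : (∃ ψ : IrrCharacter ↥Y, ψ ∈ SS Y L ν ∧ Hmg Y M lam (ψ : ↥Y → ℂ)) ∨
      (∃ ψ : IrrCharacter ↥W, ψ ∈ SS W L ν ∧ Hmg W M lam (ψ : ↥W → ℂ))
  · obtain ⟨μ, hμ, hμ2, hμM⟩ : ∃ μ : Γ → ℂ, IsLin Y μ ∧ TwoPow Y μ ∧ ∀ m ∈ M, μ m = lam m := by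
      rcases hex with ⟨ψ, hψ, hh⟩ | ⟨ψ, hψ, hh⟩
      · exact exists_ext hMY le_rfl hYn (by simp) (inv_stab _ _ _) hl hsq ψ hψ.1 hh
      · exact exists_ext hMW hWY hYn hoddW (inv_stab _ _ _) hl hsq ψ hψ.1 hh
    rw [twist_card hs.le hMY hμ hμM hL hsq,
      twist_card hs.le hMW (isLin_mono hμ hWY) hμM hL hsq]
    refine IH Y _ (relIndex_lt hs.le hne hMY hYX) hcY (isLin_mul_sq (isLin_mono hν hYX) hμ)
      (twoPow_mul_sq (twoPow_mono h2 hYX) hμ2) ?_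
    intro m hm
    simp only
    rw [hνM m hm, hμM m hm, hsq m hm, one_mul]
  · push Not at hex
    have e1 : IsEmpty {ψ : IrrCharacter ↥Y // ψ ∈ SS Y L ν ∧ Hmg Y M lam (ψ : ↥Y → ℂ)} :=
      ⟨fun ψ => hex.1 ψ.1 ψ.2.1 ψ.2.2⟩
    have e2 : IsEmpty {ψ : IrrCharacter ↥W // ψ ∈ SS W L ν ∧ Hmg W M lam (ψ : ↥W → ℂ)} :=
      ⟨fun ψ => hex.2 ψ.1 ψ.2.1 ψ.2.2⟩
    rw [Nat.card_of_isEmpty, Nat.card_of_isEmpty]

theorem case_two {X L M P : Subgroup Γ} {ν : Γ → ℂ} (hc : Cfg X L P) (hs : Sec X L M 2)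
    (hne : L ≠ M) (hν : IsLin X ν) (h2 : TwoPow X ν)
    (IH : ∀ (Y : Subgroup Γ) (ν' : Γ → ℂ), M.relIndex Y < L.relIndex X → Cfg Y M P → IsLin Y ν' →
      TwoPow Y ν' → Triv M ν' → Nat.card (SS Y M ν') = Nat.card (SS (NN Y P M) M ν')) :
    Nat.card (SS X L ν) = Nat.card (SS (NN X P L) L ν) := by
  have hMPL : M ≤ P ⊔ L := le_sup_of_two hc hs
  set N := NN X P L with hN
  have hNX : N ≤ X := nn_le _ _ _
  have hPLN : P ⊔ L ≤ N := sup_le_nn hc.syl.1 hc.le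
  have hMN : M ≤ N := hMPL.trans hPLN
  have hPN : P ≤ N := le_sup_left.trans hPLN
  have hsN : Sec N L M 2 := sec_mono hs hNX hMN
  have hsylN := (isSyl2_of_le hc.syl hPN hNX).1
  by_cases hνM : Triv M ν
  · let R : ↥(SS X L ν) → (↥M →* ℂˣ) → Prop := fun β lam =>
      (Triv L (amb lam) ∧ Inv P M (amb lam)) ∧ Over X M (amb lam) ((β : IrrCharacter ↥X) : ↥X → ℂ)
    let R' : ↥(SS N L ν) → (↥M →* ℂˣ) → Prop := fun β lam =>
      (Triv L (amb lam) ∧ Inv P M (amb lam)) ∧ Over N M (amb lam) ((β : IrrCharacter ↥N) : ↥N → ℂ)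
    let E : (↥M →* ℂˣ) → (↥M →* ℂˣ) → Prop := fun lam lam' =>
      ∃ n ∈ N, ∀ m ∈ M, amb lam' m = amb lam (n * m * n⁻¹)
    refine partition R R' E ?_ ?_ ?_ ?_ ?_
    · intro β
      obtain ⟨lam, h1, h2, h3⟩ := cover hs hc.syl β.1 β.2.1 β.2.2.2
      exact ⟨lam, ⟨h1, h2⟩, h3⟩
    · intro β
      obtain ⟨lam, h1, h2, h3⟩ := cover hsN hsylN β.1 β.2.1 β.2.2.2
      exact ⟨lam, ⟨h1, h2⟩, h3⟩
    · intro β lam lam' hR
      constructor
      · intro hR'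
        obtain ⟨n, hn, hn'⟩ := fusion hs.leX hs.norm hc.syl β.1 (isLin_amb lam) (isLin_amb lam')
          hR.1.2 hR'.1.2 hR.2 hR'.2
        exact ⟨n, normalizer_le_nn hc.norm hn, hn'⟩
      · rintro ⟨n, hn, hn'⟩
        exact ⟨inv_conj hs hc.syl.1 (isLin_amb lam) hR.1.1 hR.1.2 n hn hn',
          over_conj hs.leX hs.norm β.1 n (hNX hn) hn' hR.2⟩
    · intro β lam lam' hR
      constructor
      · intro hR'
        obtain ⟨n, hn, hn'⟩ := fusion hMN hsN.norm hsylN β.1 (isLin_amb lam) (isLin_amb lam')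
          hR.1.2 hR'.1.2 hR.2 hR'.2
        exact ⟨n, hn.1, hn'⟩
      · rintro ⟨n, hn, hn'⟩
        exact ⟨inv_conj hs hc.syl.1 (isLin_amb lam) hR.1.1 hR.1.2 n hn hn',
          over_conj hMN hsN.norm β.1 n hn hn' hR.2⟩
    · intro lam
      by_cases hlam : Triv L (amb lam) ∧ Inv P M (amb lam)
      · have hl := isLin_amb lam
        have hsq := sq_of_sec hs hl hlam.1
        have e1 : {s : ↥(SS X L ν) // R s lam} ≃
            {β : IrrCharacter ↥X // β ∈ SS X L ν ∧ Over X M (amb lam) (β : ↥X → ℂ)} :=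
          { toFun := fun s => ⟨s.1.1, s.1.2, s.2.2⟩
            invFun := fun β => ⟨⟨β.1, β.2.1⟩, hlam, β.2.2⟩
            left_inv := fun _ => rfl
            right_inv := fun _ => rfl }
        have e2 : {s : ↥(SS N L ν) // R' s lam} ≃
            {β : IrrCharacter ↥N // β ∈ SS N L ν ∧ Over N M (amb lam) (β : ↥N → ℂ)} :=
          { toFun := fun s => ⟨s.1.1, s.1.2, s.2.2⟩
            invFun := fun β => ⟨⟨β.1, β.2.1⟩, hlam, β.2.2⟩
            left_inv := fun _ => rfl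
            right_inv := fun _ => rfl }
        rw [Nat.card_congr e1, Nat.card_congr e2,
          cliff_card hs.le hs.leX hs.normL hs.norm hc.syl hl hlam.1 hsq hlam.2 hν hνM,
          cliff_card hs.le hMN hsN.normL hsN.norm hsylN hl hlam.1 hsq hlam.2 (isLin_mono hν hNX) hνM]
        exact inv_case hc hs hne hν h2 hνM hl hlam.1 hlam.2 IH
      · have e1 : IsEmpty {s : ↥(SS X L ν) // R s lam} := ⟨fun s => hlam s.2.1⟩
        have e2 : IsEmpty {s : ↥(SS N L ν) // R' s lam} := ⟨fun s => hlam s.2.1⟩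
        rw [Nat.card_of_isEmpty, Nat.card_of_isEmpty]
  · rw [ss_empty hs hν hνM, ss_empty hsN (isLin_mono hν hNX) hνM]
    simp

theorem case_odd {X L M P : Subgroup Γ} {q : ℕ} {ν : Γ → ℂ} (hc : Cfg X L P) (hs : Sec X L M q)
    (hq : q ≠ 2) (hν : IsLin X ν) (h2 : TwoPow X ν) (hνL : Triv L ν)
    (IH : Triv M ν → Nat.card (SS X M ν) = Nat.card (SS (NN X P M) M ν)) :
    Nat.card (SS X L ν) = Nat.card (SS (NN X P L) L ν) := by
  have hνM : Triv M ν := triv_of_odd hs hq hν h2 hνL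
  have hNX : NN X P L ≤ X := nn_le _ _ _
  have hPLN : P ⊔ L ≤ NN X P L := sup_le_nn hc.syl.1 hc.le
  have hLN : L ≤ NN X P L := le_sup_right.trans hPLN
  rw [ss_eq_of_odd hs hq hνM, IH hνM, nn_sup hc hs.le hs.leX hs.norm,
    card_ss_sup (hNX.trans hs.norm) (isLin_mono hν (sup_le hNX hs.leX)) hνM,
    ss_eq_of_odd (sec_inf hs hNX hLN) hq (triv_mono hνM inf_le_right)]

theorem main1 : ∀ (n : ℕ) (X L P : Subgroup Γ) (ν : Γ → ℂ), L.relIndex X = n → Cfg X L P →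
    IsLin X ν → TwoPow X ν → Triv L ν →
    Nat.card (SS X L ν) = Nat.card (SS (NN X P L) L ν) := by
  intro n
  induction n using Nat.strong_induction_on with
  | _ n ih =>
    intro X L P ν hn hc hν h2 hνL
    by_cases hLX : L = X
    · have : NN X P L = X := by
        apply le_antisymm (nn_le _ _ _)
        rw [hLX]
        exact le_sup_right.trans (sup_le_nn hc.syl.1 le_rfl)
      rw [this]
    · obtain ⟨M, q, hs, hne⟩ := exists_chief hc.solv hc.le hc.norm hLX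
      by_cases hq : q = 2
      · subst hq
        refine case_two hc hs hne hν h2 ?_
        intro Y ν' hlt hcY hν' h2' hM'
        exact ih _ (hn ▸ hlt) Y M P ν' rfl hcY hν' h2' hM'
      · refine case_odd hc hs hq hν h2 hνL ?_
        intro hνM
        exact ih _ (hn ▸ relIndex_lt hs.le hne hs.leX le_rfl) X M P ν rfl (cfg_up hc hs) hν h2 hνM

end Cfsg.Agent.Lib.H79ROMain1
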