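import Mathlib
import Cfsg.Agent.Lib.H79RODefs
import Cfsg.Agent.Lib.H79ROBasic
import Cfsg.Agent.Lib.H79ROIdx
import Cfsg.Agent.Lib.H79RONNSup
import Cfsg.Agent.Lib.H79ROTLin
import Cfsg.Agent.Lib.H79ROTSep
import Cfsg.Agent.Lib.H79ROTExtOdd
import Cfsg.Agent.Lib.H79ROTHmg
import Cfsg.Agent.Lib.H79ROTTrans
import Cfsg.Agent.Lib.H79ROTExOdd
import Cfsg.Agent.Lib.H79ROTExInv
import Cfsg.Agent.Lib.H79ROTOverTw
import Cfsg.Agent.Lib.H79ROFusion

set_option autoImplicit false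

/-! PROJECT 79 = RO (row S4581), piece `StepBOdd` (layer 4). -/

namespace Cfsg.Agent.Lib.H79ROStepBOdd

open Cfsg Cfsg.Agent.Lib.H79RODefs Cfsg.Agent.Lib.H79ROBasic
open Cfsg.Agent.Lib.H79ROIdx Cfsg.Agent.Lib.H79RONNSup Cfsg.Agent.Lib.H79ROTLin Cfsg.Agent.Lib.H79ROTSep Cfsg.Agent.Lib.H79ROTExtOdd Cfsg.Agent.Lib.H79ROTHmg Cfsg.Agent.Lib.H79ROTTrans Cfsg.Agent.Lib.H79ROTExOdd Cfsg.Agent.Lib.H79ROTExInv Cfsg.Agent.Lib.H79ROTOverTw Cfsg.Agent.Lib.H79ROFusion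
open scoped Classical ComplexConjugate Pointwise

variable {Γ : Type*} [Group Γ]

/-- the kernel of a linear character -/
def kerSub (K : Subgroup Γ) (κ : Γ → ℂ) (h : IsLin K κ) : Subgroup Γ where
  carrier := {x | x ∈ K ∧ κ x = 1}
  one_mem' := ⟨K.one_mem, h.1⟩
  mul_mem' := by
    rintro a b ⟨ha, ha'⟩ ⟨hb, hb'⟩
    exact ⟨K.mul_mem ha hb, by rw [h.2 a ha b hb, ha', hb', one_mul]⟩
  inv_mem' := by
    rintro a ⟨ha, ha'⟩
    refine ⟨K.inv_mem ha, ?_⟩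
    have := isLin_inv_mul h ha
    rwa [ha', one_mul] at this

theorem kills {K M : Subgroup Γ} {κ : Γ → ℂ} (h : IsLin K κ) (hMK : M ≤ K) (ht : Triv M κ) :
    ∀ x ∈ ⁅K, K⁆ ⊔ M, κ x = 1 := by
  have h1 : ⁅K, K⁆ ⊔ M ≤ kerSub K κ h := by
    apply sup_le
    · rw [Subgroup.commutator_le]
      intro a ha b hb
      refine ⟨K.mul_mem (K.mul_mem (K.mul_mem ha hb) (K.inv_mem ha)) (K.inv_mem hb), ?_⟩
      rw [commutatorElement_def, h.2 _ (K.mul_mem (K.mul_mem ha hb) (K.inv_mem ha)) _ (K.inv_mem hb),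
        isLin_conj_eq h ha hb, isLin_inv_mul h hb]
    · intro m hm
      exact ⟨hMK hm, ht m hm⟩
  intro x hx
  exact (h1 hx).2

theorem isLin_pow {K : Subgroup Γ} {κ : Γ → ℂ} (h : IsLin K κ) {a : Γ} (ha : a ∈ K) (n : ℕ) :
    κ (a ^ n) = κ a ^ n := by
  induction n with
  | zero => simp [h.1]
  | succ n ih => rw [pow_succ, h.2 _ (K.pow_mem ha n) _ ha, ih, pow_succ]

theorem conj_eq_of_sq {z : ℂ} (h1 : z ^ 2 = 1) (h2 : z * conj z = 1) : conj z = z := by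
  have hz : z ≠ 0 := by
    intro h
    rw [h] at h1
    norm_num at h1
  apply mul_left_cancel₀ hz
  rw [h2, ← pow_two, h1]

variable [Fintype Γ]

theorem ea_part {X L M P : Subgroup Γ} {q : ℕ} (hc : Cfg X L P) (hs : Sec X L M q)
    (hq : q ≠ 2) (hea : EA P M) : EA P L := by
  have hn : P ⊔ L ≤ Subgroup.normalizer (L : Set Γ) :=
    sup_le (hc.syl.1.trans hc.norm) Subgroup.le_normalizer
  apply sq_mem_of_real le_sup_right hn
  intro κ hκ hL g hg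
  obtain ⟨κ', hκ', hM, hag⟩ := res_lin hc hs hq hκ hL
  have hle : P ⊔ L ≤ P ⊔ M := sup_le_sup_left hs.le P
  have hg' : g ∈ P ⊔ M := hle hg
  have h1 : κ' (g ^ 2) = 1 := kills hκ' le_sup_right hM _ (hea g hg')
  rw [isLin_pow hκ' hg'] at h1
  rw [← hag g hg]
  exact conj_eq_of_sq h1 (norm_one hκ' hg')

theorem sn_part {X L M P : Subgroup Γ} {q : ℕ} (hc : Cfg X L P) (hs : Sec X L M q)
    (hq : q ≠ 2) (hreal : RealAll X L) (hsn : SN X P M) : SN X P L := by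
  intro n hn
  have hPX : P ≤ X := hc.syl.1
  have hPLX : P ⊔ L ≤ X := sup_le hPX hc.le
  have hPMX : P ⊔ M ≤ X := sup_le hPX hs.leX
  have h1 : n ∈ NN X P M := by
    rw [nn_sup hc hs.le hs.leX hs.norm]
    exact Subgroup.mem_sup_left hn
  have h2 : n ∈ P ⊔ M := hsn h1
  have h3 : P ⊔ M = (P ⊔ L) ⊔ M := by
    rw [sup_assoc, sup_eq_right.2 hs.le]
  have h4 : n ∈ (((P ⊔ L) ⊔ M : Subgroup Γ) : Set Γ) := h3 ▸ h2
  rw [Subgroup.coe_mul_of_left_le_normalizer_right (P ⊔ L) M (hPLX.trans hs.norm)] at h4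
  obtain ⟨g, hg, c, hcM, rfl⟩ := h4
  have hg : g ∈ P ⊔ L := hg
  have hcM : c ∈ M := hcM
  have hcN : c ∈ NN X P L := by
    have : c = g⁻¹ * (g * c) := by group
    rw [this]
    exact (NN X P L).mul_mem ((NN X P L).inv_mem (sup_le_nn hPX hc.le hg)) hn
  suffices hcL : c ∈ L from (P ⊔ L).mul_mem hg (Subgroup.mem_sup_right hcL)
  by_contra hcL
  have hcnorm : c ∈ Subgroup.normalizer ((P ⊔ L : Subgroup Γ) : Set Γ) := hcN.2
  have hcP : ∀ p ∈ P, p * c * p⁻¹ * c⁻¹ ∈ L := by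
    intro p hp
    rw [← sup_inf_eq hc hs hq]
    refine ⟨?_, ?_⟩
    · have e : p * c * p⁻¹ * c⁻¹ = p * (c * p⁻¹ * c⁻¹) := by group
      rw [e]
      refine (P ⊔ L).mul_mem (Subgroup.mem_sup_left hp) ?_
      exact (Subgroup.mem_normalizer_iff.mp hcnorm p⁻¹).mp (Subgroup.mem_sup_left (P.inv_mem hp))
    · refine M.mul_mem ?_ (M.inv_mem hcM)
      exact (Subgroup.mem_normalizer_iff.mp (hs.norm (hPX hp)) c).mp hcM
  obtain ⟨θ, hθ, hθL, hθi, hθc⟩ := exists_inv hc hs hq c hcM hcL hcP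
  obtain ⟨κ, hκ, hκθ⟩ := ext_odd hc hs hq hθ hθL hθi
  have hodd : Odd ((P ⊔ M).relIndex X) := (isSyl2_of_le hc.syl le_sup_left hPMX).2
  obtain ⟨β, hβodd, hβ⟩ := exists_odd_over hPMX hodd hκ
  have hoM : Over X M θ (β : ↥X → ℂ) :=
    over_congr (fun g hg => (hκθ g hg).symm) _ (over_trans le_sup_right hPMX hκ β hβ)
  have hLPM : L ≤ P ⊔ M := hs.le.trans le_sup_right
  have hoL : Over X L κ (β : ↥X → ℂ) := over_trans hLPM hPMX hκ β hβ
  have hκL : Triv L κ := fun a ha => by rw [hκθ a (hs.le ha)]; exact hθL a ha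
  have hker : KerGe X L (β : ↥X → ℂ) :=
    kerGe_of_over hc.le hc.norm (isLin_mono hκ hLPM) hκL β hoL
  have hre := hreal β hβodd hker
  have hoM' : Over X M (fun g => conj (θ g)) (β : ↥X → ℂ) := by
    have := over_star _ hoM
    have e : (fun x : ↥X => conj ((β : ↥X → ℂ) x)) = (β : ↥X → ℂ) := funext hre
    rwa [e] at this
  have hθ' : IsLin M (fun g => conj (θ g)) := by
    refine ⟨by simp [hθ.1], fun a ha b hb => ?_⟩
    simp only [hθ.2 a ha b hb, map_mul]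
  have hθi' : Inv P M (fun g => conj (θ g)) := by
    intro p hp m hm
    simp only [hθi p hp m hm]
  obtain ⟨n', hn', hfus⟩ := fusion hs.leX hs.norm hc.syl β hθ hθ' hθi hθi' hoM hoM'
  have hn'PM : n' ∈ P ⊔ M := hsn (normalizer_le_nn hs.norm hn')
  have hn'c : n' * c * n'⁻¹ ∈ M :=
    (Subgroup.mem_normalizer_iff.mp (hs.norm hn'.1) c).mp hcM
  have h5 : conj (θ c) = θ c := by
    have := hfus c hcM
    rw [this, ← hκθ _ hn'c, isLin_conj_eq hκ hn'PM (Subgroup.mem_sup_right hcM), hκθ c hcM]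
  have h6 : θ c ^ 2 = 1 := by
    have := norm_one hθ hcM
    rw [h5] at this
    rw [pow_two, this]
  have h7 : θ c ^ q = 1 := by
    rw [← isLin_pow hθ hcM]
    exact hθL _ (hs.pow c hcM)
  apply hθc
  have hcop : Nat.Coprime 2 q := by
    rw [Nat.coprime_primes Nat.prime_two hs.prime]
    exact fun h => hq h.symm
  have := pow_gcd_eq_one.2 ⟨h6, h7⟩
  rwa [hcop.gcd_eq_one, pow_one] at this

theorem step_b_odd {X L M P : Subgroup Γ} {q : ℕ} (hc : Cfg X L P) (hs : Sec X L M q)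
    (hq : q ≠ 2) (hreal : RealAll X L) (hsn : SN X P M) (hea : EA P M) :
    SN X P L ∧ EA P L :=
  ⟨sn_part hc hs hq hreal hsn, ea_part hc hs hq hea⟩

end Cfsg.Agent.Lib.H79ROStepBOdd
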