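import Mathlib
import Cfsg.Agent.Lib.H79RODefs
import Cfsg.Agent.Lib.H79ROBasic
import Cfsg.Agent.Lib.H79ROChief
import Cfsg.Agent.Lib.H79ROIdx
import Cfsg.Agent.Lib.H79RONNSup
import Cfsg.Agent.Lib.H79ROLeSup
import Cfsg.Agent.Lib.H79ROEaUp
import Cfsg.Agent.Lib.H79ROPartition
import Cfsg.Agent.Lib.H79ROEaBot
import Cfsg.Agent.Lib.H79ROTLin
import Cfsg.Agent.Lib.H79ROTInd
import Cfsg.Agent.Lib.H79ROTSep
import Cfsg.Agent.Lib.H79ROTExtOdd
import Cfsg.Agent.Lib.H79ROTKer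
import Cfsg.Agent.Lib.H79ROTSylTriv
import Cfsg.Agent.Lib.H79ROTClf
import Cfsg.Agent.Lib.H79ROTHmg
import Cfsg.Agent.Lib.H79ROTTrans
import Cfsg.Agent.Lib.H79ROTExOdd
import Cfsg.Agent.Lib.H79ROTExInv
import Cfsg.Agent.Lib.H79ROTrivOdd
import Cfsg.Agent.Lib.H79ROOverConj
import Cfsg.Agent.Lib.H79ROTop
import Cfsg.Agent.Lib.H79ROSub
import Cfsg.Agent.Lib.H79ROSelf
import Cfsg.Agent.Lib.H79ROTwistCard
import Cfsg.Agent.Lib.H79ROTOverTw
import Cfsg.Agent.Lib.H79ROTFour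
import Cfsg.Agent.Lib.H79ROTLinCons
import Cfsg.Agent.Lib.H79ROTCfix
import Cfsg.Agent.Lib.H79ROCover
import Cfsg.Agent.Lib.H79ROFusion
import Cfsg.Agent.Lib.H79ROSsOdd
import Cfsg.Agent.Lib.H79ROSsSup
import Cfsg.Agent.Lib.H79ROSsEmpty
import Cfsg.Agent.Lib.H79ROExt
import Cfsg.Agent.Lib.H79ROCliffCard
import Cfsg.Agent.Lib.H79ROKerOddSn
import Cfsg.Agent.Lib.H79RORealTwo
import Cfsg.Agent.Lib.H79ROStepBOdd
import Cfsg.Agent.Lib.H79ROEaOfEe
import Cfsg.Agent.Lib.H79ROEeOdd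
import Cfsg.Agent.Lib.H79ROEeTwo

set_option autoImplicit false

namespace Cfsg.Agent.Lib.H79ROMain2

open Cfsg Cfsg.Agent.Lib.H79RODefs Cfsg.Agent.Lib.H79ROBasic
open Cfsg.Agent.Lib.H79ROChief Cfsg.Agent.Lib.H79ROIdx Cfsg.Agent.Lib.H79RONNSup Cfsg.Agent.Lib.H79ROLeSup Cfsg.Agent.Lib.H79ROEaUp Cfsg.Agent.Lib.H79ROPartition Cfsg.Agent.Lib.H79ROEaBot Cfsg.Agent.Lib.H79ROTLin Cfsg.Agent.Lib.H79ROTInd Cfsg.Agent.Lib.H79ROTSep Cfsg.Agent.Lib.H79ROTExtOdd Cfsg.Agent.Lib.H79ROTKer Cfsg.Agent.Lib.H79ROTSylTriv Cfsg.Agent.Lib.H79ROTClf Cfsg.Agent.Lib.H79ROTHmg Cfsg.Agent.Lib.H79ROTTrans Cfsg.Agent.Lib.H79ROTExOdd Cfsg.Agent.Lib.H79ROTExInv Cfsg.Agent.Lib.H79ROTrivOdd Cfsg.Agent.Lib.H79ROOverConj Cfsg.Agent.Lib.H79ROTop Cfsg.Agent.Lib.H79ROSub Cfsg.Agent.Lib.H79ROSelf Cfsg.Agent.Lib.H79ROTwistCard Cfsg.Agent.Lib.H79ROTOverTw Cfsg.Agent.Lib.H79ROTFour Cfsg.Agent.Lib.H79ROTLinCons Cfsg.Agent.Lib.H79ROTCfix Cfsg.Agent.Lib.H79ROCover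 Cfsg.Agent.Lib.H79ROFusion Cfsg.Agent.Lib.H79ROSsOdd Cfsg.Agent.Lib.H79ROSsSup Cfsg.Agent.Lib.H79ROSsEmpty Cfsg.Agent.Lib.H79ROExt Cfsg.Agent.Lib.H79ROCliffCard Cfsg.Agent.Lib.H79ROKerOddSn Cfsg.Agent.Lib.H79RORealTwo Cfsg.Agent.Lib.H79ROStepBOdd Cfsg.Agent.Lib.H79ROEaOfEe Cfsg.Agent.Lib.H79ROEeOdd Cfsg.Agent.Lib.H79ROEeTwo
open scoped Classical ComplexConjugate

variable {Γ : Type*} [Group Γ] [Fintype Γ]

theorem sn_up {X L M P : Subgroup Γ} {q : ℕ} (hc : Cfg X L P) (hs : Sec X L M q)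
    (hsn : SN X P L) : SN X P M := by
  unfold SN at *
  rw [nn_sup hc hs.le hs.leX hs.norm]
  exact sup_le (hsn.trans (sup_le le_sup_left (hs.le.trans le_sup_right))) le_sup_right

theorem sup_eq_of_two {X L M P : Subgroup Γ} (hc : Cfg X L P) (hs : Sec X L M 2) :
    P ⊔ M = P ⊔ L :=
  le_antisymm (sup_le le_sup_left (le_sup_of_two hc hs))
    (sup_le le_sup_left (hs.le.trans le_sup_right))

/-- data for the stabilizer of a `P`-invariant `lam` -/
theorem stab_data {X L M P : Subgroup Γ} {lam : Γ → ℂ} (hc : Cfg X L P) (hs : Sec X L M 2)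
    (hl : IsLin M lam) (hi : Inv P M lam) :
    Cfg (stab X M lam) M P ∧ (SN X P L → SN (stab X M lam) P M) := by
  have hYX : stab X M lam ≤ X := stab_le _ _ _
  have hMY : M ≤ stab X M lam := le_stab_self hl hs.leX
  have hPY : P ≤ stab X M lam := le_stab_of_inv hc.syl.1 hs.norm hi
  refine ⟨⟨solv_of_le hYX hc.solv, hMY, stab_le_normalizer _ _ _,
    (isSyl2_of_le hc.syl hPY hYX).1⟩, ?_⟩
  intro hsn
  unfold SN NN at *
  rw [sup_eq_of_two hc hs]
  exact (inf_le_inf_right _ hYX).trans hsn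

theorem p2a : ∀ (n : ℕ) (X L P : Subgroup Γ), L.relIndex X = n → Cfg X L P → SN X P L → EA P L →
    RealAll X L := by
  intro n
  induction n using Nat.strong_induction_on with
  | _ n ih =>
    intro X L P hn hc hsn hea
    by_cases hLX : L = X
    · rw [hLX]; exact realAll_self X
    · obtain ⟨M, q, hs, hne⟩ := exists_chief hc.solv hc.le hc.norm hLX
      have heaM : EA P M := ea_up hea hs.le (hc.syl.1.trans hs.norm)
      by_cases hq : q = 2
      · subst hq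
        refine realAll_step_two hc hs hea ?_
        intro lam hl hL hi
        obtain ⟨hcY, hsnY⟩ := stab_data hc hs hl hi
        exact ih _ (hn ▸ relIndex_lt hs.le hne hcY.le (stab_le _ _ _)) _ M P rfl hcY (hsnY hsn) heaM
      · intro β hodd hker
        exact ih _ (hn ▸ relIndex_lt hs.le hne hs.leX le_rfl) X M P rfl (cfg_up hc hs)
          (sn_up hc hs hsn) heaM β hodd (kerGe_of_odd_sn hc hs hq hsn β hodd hker)

theorem ee_main : ∀ (n : ℕ) (X L P : Subgroup Γ), L.relIndex X = n → Cfg X L P → SN X P L →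
    EE X L P := by
  intro n
  induction n using Nat.strong_induction_on with
  | _ n ih =>
    intro X L P hn hc hsn
    by_cases hLX : L = X
    · rw [hLX]; exact ee_self hc.syl.1
    · obtain ⟨M, q, hs, hne⟩ := exists_chief hc.solv hc.le hc.norm hLX
      by_cases hq : q = 2
      · subst hq
        refine ee_step_two hc hs hsn ?_
        intro lam hl hL hi
        obtain ⟨hcY, hsnY⟩ := stab_data hc hs hl hi
        exact ih _ (hn ▸ relIndex_lt hs.le hne hcY.le (stab_le _ _ _)) _ M P rfl hcY (hsnY hsn)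
      · exact ee_step_odd hc hs hq (ih _ (hn ▸ relIndex_lt hs.le hne hs.leX le_rfl) X M P rfl
          (cfg_up hc hs) (sn_up hc hs hsn))

theorem realAll_up {X L M : Subgroup Γ} (hLM : L ≤ M) (h : RealAll X L) : RealAll X M :=
  fun β hodd hker => h β hodd (fun g hg => hker g (hLM hg))

theorem p2b : ∀ (n : ℕ) (X L P : Subgroup Γ), L.relIndex X = n → Cfg X L P → RealAll X L →
    SN X P L ∧ EA P L := by
  intro n
  induction n using Nat.strong_induction_on with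
  | _ n ih =>
    intro X L P hn hc hreal
    by_cases hLX : L = X
    · subst hLX
      refine ⟨(nn_le _ _ _).trans le_sup_right, fun g hg => ?_⟩
      have : P ⊔ L = L := sup_eq_right.mpr hc.syl.1
      rw [this] at hg
      exact Subgroup.mem_sup_right (L.pow_mem hg 2)
    · obtain ⟨M, q, hs, hne⟩ := exists_chief hc.solv hc.le hc.norm hLX
      obtain ⟨hsnM, heaM⟩ := ih _ (hn ▸ relIndex_lt hs.le hne hs.leX le_rfl) X M P rfl
        (cfg_up hc hs) (realAll_up hs.le hreal)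
      by_cases hq : q = 2
      · subst hq
        have hsn : SN X P L := by
          unfold SN NN at *
          rw [sup_eq_of_two hc hs] at hsnM
          exact hsnM
        exact ⟨hsn, ea_of_ee hc hreal (ee_main _ X L P rfl hc hsn)⟩
      · exact step_b_odd hc hs hq hreal hsnM heaM

end Cfsg.Agent.Lib.H79ROMain2
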