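import Mathlib
import Cfsg.Prelude.Def_Characters

set_option autoImplicit false

/-!
# Project 4560 (AC): definitions

`H` a group acting on `Ω`.  `fx Ω g` = number of fixed points, `sw Ω g` = number of ORDERED pairs interchanged by `g`
(= twice the number of 2-cycles), `pat Ω σ g` = number of injective `k`-tuples `x` with `g • x a = x (σ a)`.
`chi2`, `chi3` : the class functions which are the characters `χ^(n-2,2)`, `χ^(n-2,1,1)` for `S_n`.
-/

namespace Cfsg.Agent.Lib.H83ACDefs

variable {H : Type*} [Group H] (Ω : Type*) [MulAction H Ω]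

/-- number of fixed points -/
noncomputable def fx (g : H) : ℕ := Nat.card {i : Ω // g • i = i}

/-- number of ordered pairs interchanged by `g` -/
noncomputable def sw (g : H) : ℕ :=
  Nat.card {p : Ω × Ω // p.1 ≠ p.2 ∧ g • p.1 = p.2 ∧ g • p.2 = p.1}

/-- number of injective `k`-tuples `x` with `g • x a = x (σ a)` for all `a` -/
noncomputable def pat {k : ℕ} (σ : Equiv.Perm (Fin k)) (g : H) : ℕ :=
  Nat.card {x : Fin k ↪ Ω // ∀ a, g • x a = x (σ a)}

noncomputable def chi2 (g : H) : ℂ := ((fx Ω g : ℂ) ^ 2 - 3 * (fx Ω g : ℂ) + (sw Ω g : ℂ)) / 2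

noncomputable def chi3 (g : H) : ℂ := ((fx Ω g : ℂ) ^ 2 - 3 * (fx Ω g : ℂ) + 2 - (sw Ω g : ℂ)) / 2

end Cfsg.Agent.Lib.H83ACDefs
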