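import Mathlib
import Cfsg.Agent.Lib.H83ACDefs

set_option autoImplicit false

/-!
# Project 4560 (AC), piece CntA (PURE MATHLIB)
-/

namespace Cfsg.Agent.Lib.H83ACCntA

open Cfsg.Agent.Lib.H83ACDefs

/-- The injective `k`-tuples of fixed points. -/
theorem cntA {H Ω : Type*} [Group H] [MulAction H Ω] [Finite Ω] (k : ℕ) (g : H) :
    pat Ω (1 : Equiv.Perm (Fin k)) g = (fx Ω g).descFactorial k := by
  classical
  have : Fintype Ω := Fintype.ofFinite Ω
  unfold pat fx
  let e : {x : Fin k ↪ Ω // ∀ a, g • x a = x ((1 : Equiv.Perm (Fin k)) a)} ≃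
      (Fin k ↪ {i : Ω // g • i = i}) :=
    { toFun := fun x => ⟨fun a => ⟨x.1 a, x.2 a⟩, fun a b hab => x.1.injective (congrArg Subtype.val hab)⟩
      invFun := fun z => ⟨z.trans (Function.Embedding.subtype _), fun a => (z a).2⟩
      left_inv := fun x => by ext a; rfl
      right_inv := fun z => by ext a; rfl }
  rw [Nat.card_congr e, Nat.card_eq_fintype_card, Fintype.card_embedding_eq, Fintype.card_fin,
    Nat.card_eq_fintype_card]

end Cfsg.Agent.Lib.H83ACCntA
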