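import Mathlib
import Cfsg.Agent.Lib.H83ACDefs

set_option autoImplicit false

/-!
# Project 4560 (AC), piece CntB (PURE MATHLIB)
-/

namespace Cfsg.Agent.Lib.H83ACCntB

open Cfsg.Agent.Lib.H83ACDefs

/-- the tuple built from an interchanged pair and fixed points -/
def mkT {Ω : Type*} {k : ℕ} (p q : Ω) (z : Fin k → Ω) : Fin (k + 2) → Ω :=
  Fin.cons p (Fin.cons q z)

theorem mkT_zero {Ω : Type*} {k : ℕ} (p q : Ω) (z : Fin k → Ω) : mkT p q z 0 = p := rfl

theorem mkT_one {Ω : Type*} {k : ℕ} (p q : Ω) (z : Fin k → Ω) : mkT p q z (Fin.succ 0) = q := rfl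

theorem mkT_succ {Ω : Type*} {k : ℕ} (p q : Ω) (z : Fin k → Ω) (a : Fin k) :
    mkT p q z a.succ.succ = z a := rfl

theorem mkT_inj {Ω : Type*} {k : ℕ} (p q : Ω) (z : Fin k → Ω) (hpq : p ≠ q)
    (hp : ∀ a, z a ≠ p) (hq : ∀ a, z a ≠ q) (hz : Function.Injective z) :
    Function.Injective (mkT p q z) := by
  unfold mkT
  rw [Fin.cons_injective_iff, Fin.cons_injective_iff]
  refine ⟨?_, ?_, hz⟩
  · rintro ⟨a, ha⟩
    revert ha
    refine Fin.cases ?_ ?_ a
    · intro h
      exact hpq h.symm
    · intro b h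
      exact hp b h
  · rintro ⟨a, ha⟩
    exact hq a ha

theorem ss_ne_zero {k : ℕ} (a : Fin k) : a.succ.succ ≠ (0 : Fin (k + 2)) := Fin.succ_ne_zero _

theorem ss_ne_one {k : ℕ} (a : Fin k) : a.succ.succ ≠ (Fin.succ 0 : Fin (k + 2)) := by
  intro h
  exact Fin.succ_ne_zero a (Fin.succ_injective _ h)

/-- Injective `(k+2)`-tuples whose first two entries are interchanged and whose other entries are fixed.
PROOF.  Equivalence `{x : Fin (k+2) ↪ Ω // ∀ a, g • x a = x (swap 0 1 a)} ≃ {p : Ω × Ω // p.1 ≠ p.2 ∧ g • p.1 = p.2 ∧ g • p.2 = p.1} × (Fin k ↪ {i : Ω // g • i = i})`: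
`x ↦ ((x 0, x 1), a ↦ x a.succ.succ)`; inverse `(p, z) ↦ Fin.cons p.1 (Fin.cons p.2 (fun a => (z a : Ω)))`, which is injective (`Fin.cons_injective_iff`) because `p.1 ≠ p.2` and `p.1`, `p.2` are not fixed by `g`
(`g • p.1 = p.2 ≠ p.1`) while the `z a` are.  `Equiv.swap_apply_left/right`, `Equiv.swap_apply_of_ne_of_ne` (for `a.succ.succ`: `Fin.succ_ne_zero`, `Fin.succ_injective`); case analysis on `a : Fin (k+2)` by `Fin.cases`.
Then `Nat.card_prod`, `Fintype.card_embedding_eq`, `Fintype.card_fin` as in piece CntA.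
(If the general `k` is unpleasant: only `k = 0, 1, 2` are used; but the statement must stay as it is.) -/
theorem cntB {H Ω : Type*} [Group H] [MulAction H Ω] [Finite Ω] (k : ℕ) (g : H) :
    pat Ω (Equiv.swap (0 : Fin (k + 2)) 1) g = sw Ω g * (fx Ω g).descFactorial k := by
  classical
  have h01 : (1 : Fin (k + 2)) = Fin.succ 0 := Fin.succ_zero_eq_one.symm
  unfold pat sw fx
  have hF : Fintype {i : Ω // g • i = i} := Fintype.ofFinite _
  rw [h01]
  have e2 : (Nat.card {i : Ω // g • i = i}).descFactorial k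
      = Nat.card (Fin k ↪ {i : Ω // g • i = i}) := by
    rw [Nat.card_eq_fintype_card, Nat.card_eq_fintype_card, Fintype.card_embedding_eq,
      Fintype.card_fin]
  rw [e2, ← Nat.card_prod]
  apply Nat.card_congr
  refine
    { toFun := fun x => (⟨(x.1 0, x.1 (Fin.succ 0)),
          fun h => Fin.succ_ne_zero 0 (x.1.injective h).symm,
          by have := x.2 0; rwa [Equiv.swap_apply_left] at this,
          by have := x.2 (Fin.succ 0); rwa [Equiv.swap_apply_right] at this⟩,
        ⟨fun a => ⟨x.1 a.succ.succ, by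
            have := x.2 a.succ.succ
            rwa [Equiv.swap_apply_of_ne_of_ne (ss_ne_zero a) (ss_ne_one a)] at this⟩,
          fun a b h => by
            have h1 : x.1 a.succ.succ = x.1 b.succ.succ := congrArg Subtype.val h
            exact Fin.succ_injective _ (Fin.succ_injective _ (x.1.injective h1))⟩)
      invFun := fun t => ⟨⟨mkT t.1.1.1 t.1.1.2 (fun a => ((t.2 a : {i : Ω // g • i = i}) : Ω)),
          mkT_inj _ _ _ t.1.2.1
            (fun a h => t.1.2.1 (by
              have h1 := (t.2 a).2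
              rw [h, t.1.2.2.1] at h1
              exact h1.symm))
            (fun a h => t.1.2.1 (by
              have h1 := (t.2 a).2
              rw [h, t.1.2.2.2] at h1
              exact h1))
            (Subtype.val_injective.comp (t.2).injective)⟩, by
          intro a
          refine Fin.cases ?_ (fun b => ?_) a
          · rw [Equiv.swap_apply_left]
            exact t.1.2.2.1
          · refine Fin.cases ?_ (fun c => ?_) b
            · rw [Equiv.swap_apply_right]
              exact t.1.2.2.2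
            · rw [Equiv.swap_apply_of_ne_of_ne (ss_ne_zero c) (ss_ne_one c)]
              exact (t.2 c).2⟩
      left_inv := ?_
      right_inv := ?_ }
  · intro x
    apply Subtype.ext
    apply Function.Embedding.ext
    intro a
    refine Fin.cases ?_ (fun b => ?_) a
    · rfl
    · refine Fin.cases ?_ (fun c => ?_) b
      · rfl
      · rfl
  · intro t
    rfl

end Cfsg.Agent.Lib.H83ACCntB
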