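import Mathlib
import Cfsg.Agent.Lib.H83ACDefs

set_option autoImplicit false

/-!
# Project 4560 (AC), piece CntQ (PURE MATHLIB)
-/

namespace Cfsg.Agent.Lib.H83ACCntQ

open Cfsg.Agent.Lib.H83ACDefs

theorem inj4 {Ω : Type*} {a b c d : Ω} (hab : a ≠ b) (hac : a ≠ c) (had : a ≠ d) (hbc : b ≠ c)
    (hbd : b ≠ d) (hcd : c ≠ d) : Function.Injective ![a, b, c, d] := by
  intro i j h
  fin_cases i <;> fin_cases j <;> simp_all [eq_comm]

/-- Injective 4-tuples `(a,b,c,d)` with `g` interchanging `a,b` and interchanging `c,d`. -/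
theorem cntQ {H Ω : Type*} [Group H] [MulAction H Ω] [Finite Ω] (g : H) :
    pat Ω (Equiv.swap (0 : Fin 4) 1 * Equiv.swap (2 : Fin 4) 3) g + 2 * sw Ω g = sw Ω g ^ 2 := by
  classical
  haveI : Fintype Ω := Fintype.ofFinite Ω
  have s0 : (Equiv.swap (0 : Fin 4) 1 * Equiv.swap (2 : Fin 4) 3) 0 = 1 := by decide
  have s1 : (Equiv.swap (0 : Fin 4) 1 * Equiv.swap (2 : Fin 4) 3) 1 = 0 := by decide
  have s2 : (Equiv.swap (0 : Fin 4) 1 * Equiv.swap (2 : Fin 4) 3) 2 = 3 := by decide
  have s3 : (Equiv.swap (0 : Fin 4) 1 * Equiv.swap (2 : Fin 4) 3) 3 = 2 := by decide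
  generalize (Equiv.swap (0 : Fin 4) 1 * Equiv.swap (2 : Fin 4) 3) = σ at s0 s1 s2 s3 ⊢
  let T := {p : Ω × Ω // p.1 ≠ p.2 ∧ g • p.1 = p.2 ∧ g • p.2 = p.1}
  have hT : sw Ω g = Fintype.card T := Nat.card_eq_fintype_card
  let swT : T → T := fun p => ⟨(p.1.2, p.1.1), p.2.1.symm, p.2.2.2, p.2.2.1⟩
  have hsw : ∀ p : T, swT p ≠ p := fun p h => p.2.1 (congrArg (fun t : T => t.1.2) h)
  let P1 : T × T → Prop := fun q => q.2 = q.1
  let P2 : T × T → Prop := fun q => q.2 = swT q.1
  have hc : (Finset.univ.filter P1).card + (Finset.univ.filter P2).card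
      + (Finset.univ.filter (fun q => ¬ P1 q ∧ ¬ P2 q)).card = (Finset.univ : Finset (T × T)).card := by
    rw [← Finset.card_filter_add_card_filter_not (s := (Finset.univ : Finset (T × T))) P1, add_assoc]
    congr 1
    rw [← Finset.card_filter_add_card_filter_not
      (s := (Finset.univ : Finset (T × T)).filter (fun q => ¬ P1 q)) P2,
      Finset.filter_filter, Finset.filter_filter]
    congr 2
    ext q
    simp only [Finset.mem_filter, Finset.mem_univ, true_and]
    constructor
    · intro h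
      refine ⟨fun h1 => ?_, h⟩
      have h' : q.2 = swT q.1 := h
      have h1' : q.2 = q.1 := h1
      exact hsw q.1 (h'.symm.trans h1')
    · exact fun h => h.2
  have c1 : (Finset.univ.filter P1).card = Fintype.card T := by
    rw [← Fintype.card_subtype]
    exact Fintype.card_congr
      { toFun := fun q => q.1.1
        invFun := fun p => ⟨(p, p), rfl⟩
        left_inv := fun q => Subtype.ext (Prod.ext rfl (show q.1.1 = q.1.2 from q.2.symm))
        right_inv := fun p => rfl }
  have c2 : (Finset.univ.filter P2).card = Fintype.card T := by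
    rw [← Fintype.card_subtype]
    exact Fintype.card_congr
      { toFun := fun q => q.1.1
        invFun := fun p => ⟨(p, swT p), rfl⟩
        left_inv := fun q => Subtype.ext (Prod.ext rfl (show swT q.1.1 = q.1.2 from q.2.symm))
        right_inv := fun p => rfl }
  have c3 : (Finset.univ.filter (fun q => ¬ P1 q ∧ ¬ P2 q)).card = pat Ω σ g := by
    rw [← Fintype.card_subtype]
    unfold pat
    rw [Nat.card_eq_fintype_card]
    refine Fintype.card_congr
      { toFun := fun q => ⟨⟨![q.1.1.1.1, q.1.1.1.2, q.1.2.1.1, q.1.2.1.2], ?_⟩, ?_⟩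
        invFun := fun x => ⟨(⟨(x.1 0, x.1 1), ?_, ?_, ?_⟩, ⟨(x.1 2, x.1 3), ?_, ?_, ?_⟩), ?_, ?_⟩
        left_inv := ?_
        right_inv := ?_ }
    · obtain ⟨⟨⟨⟨a, b⟩, hab, h1, h2⟩, ⟨⟨c, d⟩, hcd, h3, h4⟩⟩, n1, n2⟩ := q
      simp only at hab h1 h2 hcd h3 h4
      have n1' : ¬ (c = a ∧ d = b) := fun h => n1 (Subtype.ext (Prod.ext h.1 h.2))
      have n2' : ¬ (c = b ∧ d = a) := fun h => n2 (Subtype.ext (Prod.ext h.1 h.2))
      apply inj4 hab _ _ _ _ hcd
      · intro e; exact n1' ⟨e.symm, by rw [← h3, ← e, h1]⟩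
      · intro e; exact n2' ⟨by rw [← h4, ← e, h1], e.symm⟩
      · intro e; exact n2' ⟨e.symm, by rw [← h3, ← e, h2]⟩
      · intro e; exact n1' ⟨by rw [← h4, ← e, h2], e.symm⟩
    · obtain ⟨⟨⟨⟨a, b⟩, hab, h1, h2⟩, ⟨⟨c, d⟩, hcd, h3, h4⟩⟩, n1, n2⟩ := q
      simp only at hab h1 h2 hcd h3 h4
      intro i
      fin_cases i
      · show g • a = ![a, b, c, d] (σ 0)
        rw [s0]; exact h1
      · show g • b = ![a, b, c, d] (σ 1)
        rw [s1]; exact h2
      · show g • c = ![a, b, c, d] (σ 2)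
        rw [s2]; exact h3
      · show g • d = ![a, b, c, d] (σ 3)
        rw [s3]; exact h4
    · exact fun e => by simpa using x.1.injective e
    · have := x.2 0; rwa [s0] at this
    · have := x.2 1; rwa [s1] at this
    · exact fun e => by simpa using x.1.injective e
    · have := x.2 2; rwa [s2] at this
    · have := x.2 3; rwa [s3] at this
    · intro e
      have e' : x.1 2 = x.1 0 := congrArg (fun t : T => t.1.1) e
      simpa using x.1.injective e'
    · intro e
      have e' : x.1 2 = x.1 1 := congrArg (fun t : T => t.1.1) e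
      simpa using x.1.injective e'
    · intro q
      rfl
    · intro x
      apply Subtype.ext
      ext i
      fin_cases i <;> rfl
  rw [c1, c2, c3, Finset.card_univ, Fintype.card_prod, ← hT] at hc
  rw [sq, ← hc]
  ring

end Cfsg.Agent.Lib.H83ACCntQ
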