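import Mathlib
import Cfsg.Agent.Lib.H83ACDefs

set_option autoImplicit false

/-!
# Project 4560 (AC), piece Deg (PURE MATHLIB)
-/

namespace Cfsg.Agent.Lib.H83ACDeg

open Cfsg.Agent.Lib.H83ACDefs

theorem fx_one' {H Ω : Type*} [Group H] [MulAction H Ω] : fx Ω (1 : H) = Nat.card Ω := by
  unfold fx
  exact Nat.card_congr (Equiv.subtypeUnivEquiv (fun i => one_smul H i))

theorem sw_one' {H Ω : Type*} [Group H] [MulAction H Ω] : sw Ω (1 : H) = 0 := by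
  unfold sw
  haveI : IsEmpty {p : Ω × Ω // p.1 ≠ p.2 ∧ (1 : H) • p.1 = p.2 ∧ (1 : H) • p.2 = p.1} :=
    ⟨fun p => p.2.1 (by have := p.2.2.1; rwa [one_smul] at this)⟩
  exact Nat.card_of_isEmpty

/-- PROOF.  `fx Ω (1:H) = Nat.card Ω` (`one_smul`; `Nat.card_congr (Equiv.subtypeUnivEquiv ..)`), `sw Ω (1:H) = 0` (the subtype is empty: `1 • p.1 = p.2` contradicts `p.1 ≠ p.2`; `Nat.card_eq_zero`/`Nat.card_of_isEmpty`).
With `n = Nat.card Ω = k + 3`: `n^2 - 3n = k (k+3)` is even (`Nat.even_mul_succ_self`-style, or `Nat.even_or_odd`), take `m = k (k+3) / 2`.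
For `chi3` with `n = k + 1`: `n^2 - 3n + 2 = k (k - 1)` — write `k (k-1)` over `ℤ`; for `k = 0` it is `0`; for `k = j+1`, `(j+1) j` is even. -/
theorem deg2 {H Ω : Type*} [Group H] [MulAction H Ω] [Finite Ω] (h : 3 ≤ Nat.card Ω) :
    ∃ m : ℕ, chi2 Ω (1 : H) = m := by
  obtain ⟨k, hk⟩ : ∃ k, Nat.card Ω = k + 3 := ⟨Nat.card Ω - 3, by omega⟩
  unfold chi2
  rw [fx_one', sw_one', hk]
  have hev : Even (k * (k + 3)) := by
    rcases Nat.even_or_odd k with h | h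
    · exact h.mul_right _
    · exact Even.mul_left (by
        obtain ⟨j, rfl⟩ := h
        exact ⟨j + 2, by ring⟩) _
  obtain ⟨m, hm⟩ := hev
  refine ⟨m, ?_⟩
  have hm' : ((k : ℂ) * ((k : ℂ) + 3)) = (m : ℂ) + (m : ℂ) := by exact_mod_cast hm
  push_cast
  have : ((k : ℂ) + 3) ^ 2 - 3 * ((k : ℂ) + 3) + 0 = (k : ℂ) * ((k : ℂ) + 3) := by ring
  rw [this, hm']
  ring

theorem deg3 {H Ω : Type*} [Group H] [MulAction H Ω] [Finite Ω] (h : 1 ≤ Nat.card Ω) :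
    ∃ m : ℕ, chi3 Ω (1 : H) = m := by
  obtain ⟨k, hk⟩ : ∃ k, Nat.card Ω = k + 1 := ⟨Nat.card Ω - 1, by omega⟩
  unfold chi3
  rw [fx_one', sw_one', hk]
  rcases k with _ | j
  · exact ⟨0, by norm_num⟩
  · have hev : Even (j * (j + 1)) := Nat.even_mul_succ_self j
    obtain ⟨m, hm⟩ := hev
    refine ⟨m, ?_⟩
    have hm' : ((j : ℂ) * ((j : ℂ) + 1)) = (m : ℂ) + (m : ℂ) := by exact_mod_cast hm
    push_cast
    have : ((j : ℂ) + 1 + 1) ^ 2 - 3 * ((j : ℂ) + 1 + 1) + 2 - 0 = (j : ℂ) * ((j : ℂ) + 1) := by ring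
    rw [this, hm']
    ring

end Cfsg.Agent.Lib.H83ACDeg
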