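import Mathlib
import Cfsg.Agent.Lib.H83ACDefs

set_option autoImplicit false

/-!
# Project 4560 (AC), piece EltSeven (PURE MATHLIB)
-/

namespace Cfsg.Agent.Lib.H83ACEltSeven

open Cfsg.Agent.Lib.H83ACDefs

/-- the element -/
def g7 : Equiv.Perm (Fin 7) :=
  Equiv.swap 0 1 * Equiv.swap 1 2 * Equiv.swap 2 3 * Equiv.swap 4 5

theorem g7_sign : Equiv.Perm.sign g7 = 1 := by decide

theorem g7_pow4 : g7 ^ 2 ^ (1 + 1) = 1 := by decide

theorem g7_pow2 : ¬ g7 ^ 2 ^ 1 = 1 := by decide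

theorem g7_fx : (Finset.univ.filter (fun i : Fin 7 => g7 i = i)).card = 1 := by decide

set_option maxRecDepth 100000 in
theorem g7_sw : (Finset.univ.filter
    (fun p : Fin 7 × Fin 7 => p.1 ≠ p.2 ∧ g7 p.1 = p.2 ∧ g7 p.2 = p.1)).card = 2 := by decide

/-- `g = (0 1 2 3)(4 5)` in `S_7`.
PROOF.  e.g. `g := c[(0 : Fin 7), 1, 2, 3] * c[(4 : Fin 7), 5]` or `swap 0 1 * swap 1 2 * swap 2 3 * swap 4 5`.  `sign g = 1`: `by decide` or `simp [Equiv.Perm.sign_mul, Equiv.Perm.sign_swap]`.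
`orderOf g = 4`: `orderOf_eq_of_pow_and_pow_div_prime`/`orderOf_eq_iff` with `decide` (`g^4 = 1`, `g^2 ≠ 1`; `(Nat.dvd_prime_pow ..)`), or `orderOf_eq_prime_pow (hnot : ¬x ^ p ^ n = 1) (hfin : x ^ p ^ (n + 1) = 1) : orderOf x = p ^ (n + 1)` with `p = 2`, `n = 1`.
`fx`/`sw`: unfold, `Nat.card_eq_fintype_card`, `Fintype.card_subtype`, `Equiv.Perm.smul_def`, then `decide` / `rfl` (`Fin 7 × Fin 7` has 49 elements; `set_option maxRecDepth` may be needed; NO native_decide). -/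
theorem eltSeven : ∃ g : Equiv.Perm (Fin 7), Equiv.Perm.sign g = 1 ∧ orderOf g = 4 ∧
    fx (Fin 7) g = 1 ∧ sw (Fin 7) g = 2 := by
  refine ⟨g7, g7_sign, ?_, ?_, ?_⟩
  · haveI : Fact (Nat.Prime 2) := ⟨Nat.prime_two⟩
    have := orderOf_eq_prime_pow (p := 2) (n := 1) g7_pow2 g7_pow4
    simpa using this
  · unfold fx
    rw [Nat.card_eq_fintype_card, Fintype.card_subtype]
    exact g7_fx
  · unfold sw
    rw [Nat.card_eq_fintype_card, Fintype.card_subtype]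
    exact g7_sw

end Cfsg.Agent.Lib.H83ACEltSeven
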