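import Mathlib

set_option autoImplicit false

/-!
# Project 4560 (AC), piece EltThree (PURE MATHLIB)
-/

namespace Cfsg.Agent.Lib.H83ACEltThree

/-- An element of order 3 moving `3 * (n / 3)` points.
PROOF.  `m := Multiset.replicate (n / 3) 3`, `m.sum = 3 * (n/3) ≤ n` (`Multiset.sum_replicate`, `smul_eq_mul`, `Nat.div_add_mod`, `omega`), members `= 3 ≥ 2` (`Multiset.eq_of_mem_replicate`).
`Equiv.Perm.exists_with_cycleType_iff (α) {m} : (∃ g : Perm α, g.cycleType = m) ↔ m.sum ≤ Fintype.card α ∧ ∀ a ∈ m, 2 ≤ a` gives `g`.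
`Equiv.Perm.sign_of_cycleType : sign f = (f.cycleType.map fun n => -(-1 : ℤˣ) ^ n).prod`: each factor is `-(-1)^3 = 1` (`Multiset.map_replicate`, `Multiset.prod_replicate`, `one_pow`).
`Equiv.Perm.lcm_cycleType : σ.cycleType.lcm = orderOf σ`: `orderOf g ∣ 3` by `Multiset.lcm_dvd`, and `3 ∣ orderOf g` by `Multiset.dvd_lcm` (`3 ∈ m` as `n / 3 ≥ 1`: `Multiset.mem_replicate`). -/
theorem eltThree (n : ℕ) (hn : 3 ≤ n) : ∃ g : Equiv.Perm (Fin n), Equiv.Perm.sign g = 1 ∧
    orderOf g = 3 ∧ g.cycleType.sum + n % 3 = n ∧ 2 ∉ g.cycleType := by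
  have hsum : (Multiset.replicate (n / 3) 3).sum = 3 * (n / 3) := by
    rw [Multiset.sum_replicate, smul_eq_mul, mul_comm]
  obtain ⟨g, hg⟩ := (Equiv.Perm.exists_with_cycleType_iff (Fin n)
    (m := Multiset.replicate (n / 3) 3)).2 ⟨by rw [hsum, Fintype.card_fin]; omega,
      fun a ha => by rw [Multiset.eq_of_mem_replicate ha]; norm_num⟩
  refine ⟨g, ?_, ?_, ?_, ?_⟩
  · rw [Equiv.Perm.sign_of_cycleType, hg, hsum, Multiset.card_replicate]
    have e : 3 * (n / 3) + n / 3 = 2 * (2 * (n / 3)) := by ring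
    rw [e, pow_mul]
    simp
  · rw [← Equiv.Perm.lcm_cycleType, hg]
    apply Nat.dvd_antisymm
    · apply Multiset.lcm_dvd.2
      intro a ha
      rw [Multiset.eq_of_mem_replicate ha]
    · apply Multiset.dvd_lcm
      rw [Multiset.mem_replicate]
      exact ⟨by omega, rfl⟩
  · rw [hg, hsum]
    omega
  · rw [hg]
    intro h
    have := Multiset.eq_of_mem_replicate h
    omega

end Cfsg.Agent.Lib.H83ACEltThree
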