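import Mathlib

set_option autoImplicit false

/-!
# Project 4560 (AC), piece EltTwo (PURE MATHLIB)
-/

namespace Cfsg.Agent.Lib.H83ACEltTwo

/-- An even 2-element without 2-cycles moving `4 * (n / 4)` points.
PROOF.  `c := n / 4 ≥ 2`.  Multiset `m := Multiset.replicate c 4` if `c` is even, `m := 8 ::ₘ Multiset.replicate (c - 2) 4` if `c` is odd (then `c ≥ 3`).  `m.sum = 4 c ≤ n` (`Multiset.sum_replicate`, `smul_eq_mul`, `Nat.div_add_mod`, `omega`), all members `≥ 2` (`Multiset.eq_of_mem_replicate`).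
`Equiv.Perm.exists_with_cycleType_iff (α) {m} : (∃ g : Perm α, g.cycleType = m) ↔ m.sum ≤ Fintype.card α ∧ ∀ a ∈ m, 2 ≤ a` gives `g`.
`Equiv.Perm.sign_of_cycleType : sign f = (f.cycleType.map fun n => -(-1 : ℤˣ) ^ n).prod` (`Multiset.map_replicate`, `Multiset.prod_replicate`, `Even.neg_one_pow`…: each 4- or 8-cycle contributes `-1`; the number of cycles `c`, resp. `c - 1`, is even).
`Equiv.Perm.lcm_cycleType : σ.cycleType.lcm = orderOf σ`: the lcm is `4 = 2^2` resp. `8 = 2^3` (prove `Multiset.lcm (replicate k 4) ∣ 4` by induction / `Multiset.lcm_dvd`, and `4 ∣ lcm` by `Multiset.dvd_lcm`; `Nat.dvd_antisymm`);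
ALTERNATIVELY avoid computing the order: `orderOf g ∣ 8` by `Multiset.lcm_dvd`, and `(Nat.dvd_prime_pow Nat.prime_two).1 : i ∣ 2 ^ 3 ↔ ∃ m ≤ 3, i = 2 ^ m` gives the `j`. -/
theorem eltTwo (n : ℕ) (hn : 8 ≤ n) : ∃ g : Equiv.Perm (Fin n), Equiv.Perm.sign g = 1 ∧
    (∃ j : ℕ, orderOf g = 2 ^ j) ∧ g.cycleType.sum + n % 4 = n ∧ 2 ∉ g.cycleType := by
  classical
  obtain ⟨c, hc⟩ : ∃ c, c = n / 4 := ⟨_, rfl⟩
  have hc2 : 2 ≤ c := by omega
  have hdm : 4 * c + n % 4 = n := by rw [hc]; exact Nat.div_add_mod n 4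
  -- the multiset
  obtain ⟨m, hsum, hmem, hcard⟩ : ∃ m : Multiset ℕ, m.sum = 4 * c ∧ (∀ a ∈ m, a = 4 ∨ a = 8) ∧
      Even (Multiset.card m) := by
    rcases Nat.even_or_odd c with he | ho
    · refine ⟨Multiset.replicate c 4, ?_, ?_, ?_⟩
      · rw [Multiset.sum_replicate, smul_eq_mul, Nat.mul_comm]
      · intro a ha
        exact Or.inl (Multiset.eq_of_mem_replicate ha)
      · rw [Multiset.card_replicate]; exact he
    · have hc3 : 3 ≤ c := by
        rcases ho with ⟨t, ht⟩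
        omega
      refine ⟨8 ::ₘ Multiset.replicate (c - 2) 4, ?_, ?_, ?_⟩
      · rw [Multiset.sum_cons, Multiset.sum_replicate, smul_eq_mul]
        omega
      · intro a ha
        rcases Multiset.mem_cons.1 ha with h | h
        · exact Or.inr h
        · exact Or.inl (Multiset.eq_of_mem_replicate h)
      · rw [Multiset.card_cons, Multiset.card_replicate]
        rcases ho with ⟨t, ht⟩
        exact ⟨t, by omega⟩
  obtain ⟨g, hg⟩ := (Equiv.Perm.exists_with_cycleType_iff (Fin n) (m := m)).2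
    ⟨by rw [hsum, Fintype.card_fin]; omega, fun a ha => by rcases hmem a ha with h | h <;> omega⟩
  refine ⟨g, ?_, ?_, ?_, ?_⟩
  · rw [Equiv.Perm.sign_of_cycleType, hg]
    apply Even.neg_one_pow
    rw [hsum]
    exact Even.add ⟨2 * c, by ring⟩ hcard
  · have hd : orderOf g ∣ 2 ^ 3 := by
      rw [← Equiv.Perm.lcm_cycleType, hg]
      apply Multiset.lcm_dvd.2
      intro a ha
      rcases hmem a ha with h | h <;> subst h <;> decide
    obtain ⟨j, _, hj⟩ := (Nat.dvd_prime_pow Nat.prime_two).1 hd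
    exact ⟨j, hj⟩
  · rw [hg, hsum]; exact hdm
  · rw [hg]
    intro h2
    rcases hmem 2 h2 with h | h <;> omega

end Cfsg.Agent.Lib.H83ACEltTwo
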