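import Mathlib
import Cfsg.Agent.Lib.H83ACDefs

set_option autoImplicit false

/-!
# Project 4560 (AC), piece Fx (PURE MATHLIB)
-/

namespace Cfsg.Agent.Lib.H83ACFx

open Cfsg.Agent.Lib.H83ACDefs

/-- PROOF.  `Equiv.Perm.sum_cycleType : σ.cycleType.sum = #σ.support`; `Equiv.Perm.mem_support : x ∈ f.support ↔ f x ≠ x`; `Equiv.Perm.smul_def : f • a = f a`.
`fx = Fintype.card {i // g i = i} = #(univ.filter (g i = i))` (`Nat.card_eq_fintype_card`, `Fintype.card_subtype`) `= #(g.supportᶜ)`; `Finset.card_compl`/`Finset.card_add_card_compl`, `Fintype.card_fin`.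
(also `Equiv.Perm.card_fixedPoints`/`Equiv.Perm.card_compl_support_modEq` neighbours may help). -/
theorem fx_eq (n : ℕ) (g : Equiv.Perm (Fin n)) : fx (Fin n) g + g.cycleType.sum = n := by
  classical
  rw [Equiv.Perm.sum_cycleType]
  have h1 : fx (Fin n) g = (g.supportᶜ).card := by
    unfold fx
    rw [Nat.card_eq_fintype_card, Fintype.card_subtype]
    congr 1
    ext i
    simp [Equiv.Perm.mem_support]
  rw [h1, add_comm, Finset.card_add_card_compl, Fintype.card_fin]

end Cfsg.Agent.Lib.H83ACFx
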