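import Mathlib
import Cfsg.Prelude.Def_Characters
import Cfsg.Agent.Lib.Helper4Char4
import Cfsg.Agent.Lib.Helper82Linear

set_option autoImplicit false
set_option linter.unusedSectionVars false

/-!
# Symmetric and alternating squares of a permutation character

For a finite `G`-set `Ω` with fixed point function `fx`, the class functions
`(fx g ^ 2 ± fx (g * g)) / 2` are characters.  Proof: let `G × ℤˣ` act on `Ω × Ω`, the second
factor by the swap, and pair the permutation character with `χ ⊗ 1` and `χ ⊗ sgn`.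
-/

namespace Cfsg.Agent.Lib.Helper59Perm2

open Cfsg Cfsg.Agent.Lib.Helper4Char Cfsg.Agent.Lib.Helper4Char2 Cfsg.Agent.Lib.Helper4Char4
  Cfsg.Agent.Lib.Helper82Linear
open scoped ComplexConjugate

variable {G : Type*} [Group G] (Ω : Type*) [MulAction G Ω]

/-- number of fixed points. -/
noncomputable def fx (g : G) : ℕ := Nat.card (MulAction.fixedBy Ω g)

theorem isCharacter_fx [Finite Ω] : IsCharacter G (fun g => (fx Ω g : ℂ)) := by
  have h := isCharacter_of_rep (Representation.ofMulAction ℂ G Ω)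
  have e : (Representation.ofMulAction ℂ G Ω).character = fun g => (fx Ω g : ℂ) := by
    funext g
    rw [ofMulAction_character]
    rfl
  rwa [e] at h

/-- the action of `G × ℤˣ` on `Ω × Ω`. -/
def act2fun (x : G × ℤˣ) (ab : Ω × Ω) : Ω × Ω :=
  if x.2 = 1 then (x.1 • ab.1, x.1 • ab.2) else (x.1 • ab.2, x.1 • ab.1)

/-- the action of `G × ℤˣ` on `Ω × Ω`. -/
@[instance_reducible]
def act2 : MulAction (G × ℤˣ) (Ω × Ω) where
  smul := act2fun Ω
  one_smul := by
    rintro ⟨a, b⟩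
    show act2fun Ω 1 (a, b) = (a, b)
    simp [act2fun]
  mul_smul := by
    rintro ⟨g, u⟩ ⟨h, v⟩ ⟨a, b⟩
    show act2fun Ω ((g, u) * (h, v)) (a, b) = act2fun Ω (g, u) (act2fun Ω (h, v) (a, b))
    rcases Int.units_eq_one_or u with rfl | rfl <;> rcases Int.units_eq_one_or v with rfl | rfl <;>
      simp [act2fun, mul_smul]

theorem card_fixed_one (g : G) :
    Nat.card {ab : Ω × Ω // act2fun Ω (g, 1) ab = ab} = fx Ω g ^ 2 := by
  rw [fx, sq, ← Nat.card_prod]
  apply Nat.card_congr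
  refine ⟨fun x => (⟨x.1.1, ?_⟩, ⟨x.1.2, ?_⟩), fun y => ⟨(y.1.1, y.2.1), ?_⟩, ?_, ?_⟩
  · have := x.2
    simp only [act2fun, if_true] at this
    exact congrArg Prod.fst this
  · have := x.2
    simp only [act2fun, if_true] at this
    exact congrArg Prod.snd this
  · simp only [act2fun, if_true]
    exact Prod.ext y.1.2 y.2.2
  · intro x; rfl
  · intro y; rfl

theorem card_fixed_neg (g : G) :
    Nat.card {ab : Ω × Ω // act2fun Ω (g, -1) ab = ab} = fx Ω (g * g) := by
  have hne : ¬ ((-1 : ℤˣ) = 1) := by decide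
  rw [fx]
  apply Nat.card_congr
  refine ⟨fun x => ⟨x.1.1, ?_⟩, fun y => ⟨(y.1, g • y.1), ?_⟩, ?_, ?_⟩
  · have := x.2
    simp only [act2fun, if_neg hne] at this
    have h1 : g • x.1.2 = x.1.1 := congrArg Prod.fst this
    have h2 : g • x.1.1 = x.1.2 := congrArg Prod.snd this
    rw [MulAction.mem_fixedBy, mul_smul, h2, h1]
  · simp only [act2fun, if_neg hne]
    have := y.2
    rw [MulAction.mem_fixedBy, mul_smul] at this
    exact Prod.ext this rfl
  · intro x
    have := x.2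
    simp only [act2fun, if_neg hne] at this
    have h2 : g • x.1.1 = x.1.2 := congrArg Prod.snd this
    apply Subtype.ext
    exact Prod.ext rfl h2
  · intro y; rfl

/-- the sign character of `ℤˣ`. -/
noncomputable def sgnHom : ℤˣ →* ℂˣ := Units.map (Int.castRingHom ℂ).toMonoidHom

theorem sgnHom_one : ((sgnHom 1 : ℂˣ) : ℂ) = 1 := by simp [sgnHom]

theorem sgnHom_neg : ((sgnHom (-1) : ℂˣ) : ℂ) = -1 := by simp [sgnHom]

variable [Fintype G] [Finite Ω]

theorem inner_aux (f : ℤˣ →* ℂˣ) (χ : IrrCharacter G) :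
    ∃ n : ℕ, classInner (fun g : G => ((fx Ω g : ℂ) ^ 2 * conj ((f 1 : ℂˣ) : ℂ)
      + (fx Ω (g * g) : ℂ) * conj ((f (-1) : ℂˣ) : ℂ)) / 2) (χ : G → ℂ) = n := by
  classical
  let _ := act2 (G := G) Ω
  have h1 : IsCharacter (G × ℤˣ) (fun x => (fx (Ω × Ω) x : ℂ)) := isCharacter_fx (Ω × Ω)
  have h2 : IsCharacter (G × ℤˣ) ((fun x : G × ℤˣ => (χ : G → ℂ) x.1)
      * (fun x : G × ℤˣ => ((f x.2 : ℂˣ) : ℂ))) :=
    IsCharacter.mul (IsCharacter.comp (MonoidHom.fst G ℤˣ) (IsIrrCharacter.isCharacter χ.2))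
      (IsCharacter.comp (MonoidHom.snd G ℤˣ)
        (IsIrrCharacter.isCharacter (isIrrCharacter_of_hom f)))
  obtain ⟨n, hn⟩ := IsCharacter.classInner_nat h1 h2
  refine ⟨n, ?_⟩
  rw [← hn]
  unfold classInner
  rw [Fintype.sum_prod_type]
  have hu : (Finset.univ : Finset ℤˣ) = {1, -1} := rfl
  have hne : (1 : ℤˣ) ≠ -1 := by decide
  have e1 : ∀ g : G, (fx (Ω × Ω) ((g, 1) : G × ℤˣ) : ℂ) = (fx Ω g : ℂ) ^ 2 := by
    intro g
    have := card_fixed_one Ω g
    rw [← Nat.cast_pow, ← this]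
    rfl
  have e2 : ∀ g : G, (fx (Ω × Ω) ((g, -1) : G × ℤˣ) : ℂ) = (fx Ω (g * g) : ℂ) := by
    intro g
    have := card_fixed_neg Ω g
    rw [← this]
    rfl
  have e3 : ∀ g : G, ∑ u : ℤˣ, (fx (Ω × Ω) ((g, u) : G × ℤˣ) : ℂ) *
      conj (((fun x : G × ℤˣ => (χ : G → ℂ) x.1) * (fun x : G × ℤˣ => ((f x.2 : ℂˣ) : ℂ))) (g, u))
      = 2 * (((fx Ω g : ℂ) ^ 2 * conj ((f 1 : ℂˣ) : ℂ)
      + (fx Ω (g * g) : ℂ) * conj ((f (-1) : ℂˣ) : ℂ)) / 2 * conj ((χ : G → ℂ) g)) := by
    intro g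
    rw [hu, Finset.sum_pair hne, e1, e2]
    simp only [Pi.mul_apply, map_mul]
    ring
  rw [Finset.sum_congr rfl (fun g _ => e3 g), ← Finset.mul_sum, Nat.card_prod]
  have hc : Nat.card ℤˣ = 2 := by
    rw [Nat.card_eq_fintype_card]; rfl
  rw [hc]
  have hG : (Nat.card G : ℂ) ≠ 0 := by exact_mod_cast Nat.card_pos.ne'
  push_cast
  rw [mul_inv, mul_assoc, inv_mul_cancel_left₀ (two_ne_zero)]

theorem isClassFunction_sq : IsClassFunction G (fun g : G => (fx Ω (g * g) : ℂ)) := by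
  intro g h
  have := IsCharacter.isClassFunction (isCharacter_fx (G := G) Ω) (g * g) h
  beta_reduce at this ⊢
  rw [← this]
  congr 2
  group

/-- the alternating square of a permutation character. -/
theorem isCharacter_alt :
    IsCharacter G (fun g : G => ((fx Ω g : ℂ) ^ 2 - (fx Ω (g * g) : ℂ)) / 2) := by
  apply isCharacter_of_classInner_nat
  · intro g h
    have h1 := IsCharacter.isClassFunction (isCharacter_fx (G := G) Ω) g h
    have h2 := isClassFunction_sq (G := G) Ω g h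
    beta_reduce at h1 h2 ⊢
    rw [h1, h2]
  · intro χ
    obtain ⟨n, hn⟩ := inner_aux Ω sgnHom χ
    refine ⟨n, ?_⟩
    rw [← hn]
    congr 1
    funext g
    rw [sgnHom_one, sgnHom_neg]
    simp
    ring

/-- the symmetric square of a permutation character. -/
theorem isCharacter_sym :
    IsCharacter G (fun g : G => ((fx Ω g : ℂ) ^ 2 + (fx Ω (g * g) : ℂ)) / 2) := by
  apply isCharacter_of_classInner_nat
  · intro g h
    have h1 := IsCharacter.isClassFunction (isCharacter_fx (G := G) Ω) g h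
    have h2 := isClassFunction_sq (G := G) Ω g h
    beta_reduce at h1 h2 ⊢
    rw [h1, h2]
  · intro χ
    obtain ⟨n, hn⟩ := inner_aux Ω 1 χ
    refine ⟨n, ?_⟩
    rw [← hn]
    congr 1
    funext g
    simp

end Cfsg.Agent.Lib.Helper59Perm2
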