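import Mathlib
import Cfsg.Agent.Lib.H83ACDefs
import Cfsg.Agent.Lib.Helper32Virt
import Cfsg.Agent.Lib.Helper59Perm2

set_option autoImplicit false

/-!
# Project 4560 (AC), piece Gen
-/

namespace Cfsg.Agent.Lib.H83ACGen

open Cfsg Cfsg.Agent.Lib.H83ACDefs Cfsg.Agent.Lib.Helper32Virt

/-- `chi2 = Sym²π - 2π`, `chi3 = Λ²π - π + 1` are generalized characters. -/
theorem gen {H Ω : Type*} [Group H] [MulAction H Ω] [Fintype H] [Finite Ω]
    (hsq : ∀ g : H, fx Ω (g * g) = fx Ω g + sw Ω g) :
    IsGeneralizedCharacter H (chi2 Ω) ∧ IsGeneralizedCharacter H (chi3 Ω) := by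
  have hfx : ∀ g : H, Helper59Perm2.fx Ω g = fx Ω g := fun _ => rfl
  have p := gen_of_char (Helper59Perm2.isCharacter_fx (G := H) Ω)
  have s := gen_of_char (Helper59Perm2.isCharacter_sym (G := H) Ω)
  have a := gen_of_char (Helper59Perm2.isCharacter_alt (G := H) Ω)
  have o := gen_of_char (Cfsg.Agent.Lib.Helper4Char4.IsCharacter.one (G := H))
  constructor
  · have h := gen_sub (gen_sub s p) p
    convert h using 1
    funext g
    simp only [chi2, Pi.sub_apply, hfx, hsq]
    push_cast
    ring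
  · have h := gen_add (gen_sub a p) o
    convert h using 1
    funext g
    simp only [chi3, Pi.sub_apply, Pi.add_apply, Pi.one_apply, hfx, hsq]
    push_cast
    ring

end Cfsg.Agent.Lib.H83ACGen
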