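import Mathlib
import Cfsg.Agent.Lib.H83ACDefs

set_option autoImplicit false

/-!
# Project 4560 (AC), piece Inner (only `Cfsg.classInner` from the Prelude)
-/

namespace Cfsg.Agent.Lib.H83ACInner

open Cfsg Cfsg.Agent.Lib.H83ACDefs

theorem inner_aux {H : Type*} [Group H] [Fintype H] (θ : H → ℂ) (z : H → ℤ)
    (hθ : ∀ g, θ g = (z g : ℂ) / 2) (h : ∑ g : H, (z g) ^ 2 = 4 * ((Nat.card H : ℕ) : ℤ)) :
    classInner θ θ = 1 := by
  unfold classInner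
  have hN : (Nat.card H : ℂ) ≠ 0 := Nat.cast_ne_zero.2 Nat.card_pos.ne'
  have h1 : ∀ g, θ g * (starRingEnd ℂ) (θ g) = ((z g ^ 2 : ℤ) : ℂ) / 4 := by
    intro g
    rw [hθ g]
    simp only [map_div₀, map_intCast, map_ofNat]
    push_cast
    ring
  rw [Finset.sum_congr rfl (fun g _ => h1 g), ← Finset.sum_div, ← Int.cast_sum, h]
  push_cast
  field_simp

theorem inner2 {H Ω : Type*} [Group H] [MulAction H Ω] [Fintype H]
    (h : ∑ g : H, ((fx Ω g : ℤ) ^ 2 - 3 * (fx Ω g : ℤ) + (sw Ω g : ℤ)) ^ 2 = 4 * ((Nat.card H : ℕ) : ℤ)) :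
    classInner (chi2 Ω : H → ℂ) (chi2 Ω) = 1 := by
  refine inner_aux _ _ (fun g => ?_) h
  unfold chi2
  push_cast
  ring

theorem inner3 {H Ω : Type*} [Group H] [MulAction H Ω] [Fintype H]
    (h : ∑ g : H, ((fx Ω g : ℤ) ^ 2 - 3 * (fx Ω g : ℤ) + 2 - (sw Ω g : ℤ)) ^ 2 = 4 * ((Nat.card H : ℕ) : ℤ)) :
    classInner (chi3 Ω : H → ℂ) (chi3 Ω) = 1 := by
  refine inner_aux _ _ (fun g => ?_) h
  unfold chi3
  push_cast
  ring

end Cfsg.Agent.Lib.H83ACInner
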