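import Mathlib
import Cfsg.Agent.Lib.Helper32Virt
import Cfsg.Agent.Lib.Helper83Char

set_option autoImplicit false

/-!
# Project 4560 (AC), piece IrrOf
-/

namespace Cfsg.Agent.Lib.H83ACIrrOf

open Cfsg

/-- A generalized character of norm 1 and nonnegative degree is irreducible. -/
theorem irrOf {H : Type*} [Group H] [Fintype H] (θ : H → ℂ) (hg : IsGeneralizedCharacter H θ)
    (hn : classInner θ θ = 1) (m : ℕ) (h1 : θ 1 = m) : IsIrrCharacter H θ := by
  rcases Cfsg.Agent.Lib.Helper32Virt.gen_norm_one hg hn with h | h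
  · exact h
  · exfalso
    obtain ⟨d, hd, hd1⟩ := Cfsg.Agent.Lib.Helper4Char2.IsIrrCharacter.exists_degree h
    rw [Pi.neg_apply, h1] at hd1
    have h2 : ((m + d : ℕ) : ℂ) = 0 := by
      push_cast
      rw [← hd1]; ring
    have h3 : m + d = 0 := by exact_mod_cast h2
    omega

end Cfsg.Agent.Lib.H83ACIrrOf
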