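import Mathlib
import Cfsg.Agent.Lib.H83ACDefs

set_option autoImplicit false

/-!
# Project 4560 (AC), piece Mom (PURE MATHLIB): the basic moment identity for a `k`-transitive group
-/

namespace Cfsg.Agent.Lib.H83ACMom

open Cfsg.Agent.Lib.H83ACDefs

/-- `∑_g #{x injective k-tuple : g • x = x ∘ σ} = |H|` for a `k`-transitive group. -/
theorem mom {H Ω : Type*} [Group H] [MulAction H Ω] [Fintype H] [Finite Ω] (k : ℕ)
    [MulAction.IsMultiplyPretransitive H Ω k] (hk : k ≤ Nat.card Ω) (σ : Equiv.Perm (Fin k)) :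
    ∑ g : H, pat Ω σ g = Nat.card H := by
  classical
  haveI : Fintype Ω := Fintype.ofFinite Ω
  haveI htr : MulAction.IsPretransitive H (Fin k ↪ Ω) := ‹MulAction.IsMultiplyPretransitive H Ω k›
  have hne : Nonempty (Fin k ↪ Ω) :=
    Function.Embedding.nonempty_of_card_le (by simpa [Nat.card_eq_fintype_card] using hk)
  let y : (Fin k ↪ Ω) → (Fin k ↪ Ω) := fun x => σ.toEmbedding.trans x
  have hP : ∀ (g : H) (x : Fin k ↪ Ω), (∀ a, g • x a = x (σ a)) ↔ g • x = y x := by
    intro g x
    constructor
    · intro h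
      ext a
      exact h a
    · intro h a
      have := DFunLike.congr_fun h a
      exact this
  have h1 : ∀ g : H, pat Ω σ g = (Finset.univ.filter (fun x : Fin k ↪ Ω => g • x = y x)).card := by
    intro g
    unfold pat
    rw [Nat.card_eq_fintype_card, Fintype.card_subtype]
    congr 1
    ext x
    simp only [Finset.mem_filter, Finset.mem_univ, true_and]
    exact hP g x
  have h2 : ∑ g : H, (Finset.univ.filter (fun x : Fin k ↪ Ω => g • x = y x)).card
      = ∑ x : Fin k ↪ Ω, (Finset.univ.filter (fun g : H => g • x = y x)).card :=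
    Finset.sum_card_bipartiteAbove_eq_sum_card_bipartiteBelow (fun (g : H) (x : Fin k ↪ Ω) => g • x = y x)
  have h3 : ∀ x : Fin k ↪ Ω, (Finset.univ.filter (fun g : H => g • x = y x)).card
      * Nat.card (Fin k ↪ Ω) = Nat.card H := by
    intro x
    obtain ⟨g0, hg0⟩ := MulAction.exists_smul_eq H x (y x)
    have e : {g : H // g • x = y x} ≃ MulAction.stabilizer H x :=
      { toFun := fun g => ⟨g0⁻¹ * g.1, by
          rw [MulAction.mem_stabilizer_iff, mul_smul, g.2, ← hg0, inv_smul_smul]⟩
        invFun := fun s => ⟨g0 * s.1, by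
          rw [mul_smul, MulAction.mem_stabilizer_iff.1 s.2, hg0]⟩
        left_inv := fun g => Subtype.ext (by simp)
        right_inv := fun s => Subtype.ext (by simp) }
    have h4 : (Finset.univ.filter (fun g : H => g • x = y x)).card
        = Nat.card (MulAction.stabilizer H x) := by
      rw [← Nat.card_congr e, Nat.card_eq_fintype_card, Fintype.card_subtype]
    rw [h4, ← MulAction.index_stabilizer_of_transitive H x, Subgroup.card_mul_index]
  simp_rw [h1]
  rw [h2]
  have hpos : 0 < Nat.card (Fin k ↪ Ω) := Nat.card_pos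
  apply Nat.eq_of_mul_eq_mul_right hpos
  rw [Finset.sum_mul, Finset.sum_congr rfl (fun x _ => h3 x), Finset.sum_const, Finset.card_univ,
    smul_eq_mul, Nat.card_eq_fintype_card (α := Fin k ↪ Ω), mul_comm]

end Cfsg.Agent.Lib.H83ACMom
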