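import Mathlib

set_option autoImplicit false

/-!
# Project 4560 (AC), piece Norm (PURE MATHLIB, elementary)
-/

namespace Cfsg.Agent.Lib.H83ACNorm

theorem norm {H : Type*} [Fintype H] (f s : H → ℕ) (N : ℕ) (hN : Fintype.card H = N)
    (a1 : ∑ g, (f g : ℤ) = N) (a2 : ∑ g, (f g : ℤ) ^ 2 = 2 * N) (a3 : ∑ g, (f g : ℤ) ^ 3 = 5 * N)
    (a4 : ∑ g, (f g : ℤ) ^ 4 = 15 * N) (b0 : ∑ g, (s g : ℤ) = N) (b1 : ∑ g, (f g : ℤ) * s g = N)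
    (b2 : ∑ g, (f g : ℤ) ^ 2 * s g = 2 * N) (b3 : ∑ g, (s g : ℤ) ^ 2 = 3 * N) :
    (∑ g, ((f g : ℤ) ^ 2 - 3 * (f g : ℤ) + (s g : ℤ)) ^ 2 = 4 * (N : ℤ)) ∧
      (∑ g, ((f g : ℤ) ^ 2 - 3 * (f g : ℤ) + 2 - (s g : ℤ)) ^ 2 = 4 * (N : ℤ)) := by
  have c0 : ∑ _g : H, (4 : ℤ) = 4 * N := by
    rw [Finset.sum_const, Finset.card_univ, hN]
    simp [mul_comm]
  constructor
  · have e : ∀ g : H, ((f g : ℤ) ^ 2 - 3 * (f g : ℤ) + (s g : ℤ)) ^ 2 =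
        (f g : ℤ) ^ 4 + 9 * (f g : ℤ) ^ 2 + (s g : ℤ) ^ 2 - 6 * (f g : ℤ) ^ 3 +
          2 * ((f g : ℤ) ^ 2 * s g) - 6 * ((f g : ℤ) * s g) := fun g => by ring
    rw [Finset.sum_congr rfl (fun g _ => e g)]
    simp only [Finset.sum_add_distrib, Finset.sum_sub_distrib, ← Finset.mul_sum]
    rw [a2, a3, a4, b1, b2, b3]
    ring
  · have e : ∀ g : H, ((f g : ℤ) ^ 2 - 3 * (f g : ℤ) + 2 - (s g : ℤ)) ^ 2 =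
        (f g : ℤ) ^ 4 + 13 * (f g : ℤ) ^ 2 + 4 + (s g : ℤ) ^ 2 - 6 * (f g : ℤ) ^ 3 -
          2 * ((f g : ℤ) ^ 2 * s g) - 12 * (f g : ℤ) + 6 * ((f g : ℤ) * s g) - 4 * (s g : ℤ) :=
      fun g => by ring
    rw [Finset.sum_congr rfl (fun g _ => e g)]
    simp only [Finset.sum_add_distrib, Finset.sum_sub_distrib, ← Finset.mul_sum]
    rw [a1, a2, a3, a4, b0, b1, b2, b3, c0]
    ring

end Cfsg.Agent.Lib.H83ACNorm
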