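import Mathlib
import Cfsg.Agent.Lib.H83ACDefs

set_option autoImplicit false

/-!
# Project 4560 (AC), piece Sq (PURE MATHLIB)
-/

namespace Cfsg.Agent.Lib.H83ACSq

open Cfsg.Agent.Lib.H83ACDefs

/-- Fixed points of `g^2` = fixed points of `g` + points in 2-cycles.
PROOF.  `{i // (g * g) • i = i} ≃ {i // g • i = i} ⊕ {p : Ω × Ω // p.1 ≠ p.2 ∧ g • p.1 = p.2 ∧ g • p.2 = p.1}` (`mul_smul`): split by `g • i = i` or not
(e.g. `Equiv.sumCompl`-style / `Nat.card_sum`, or via Finset filters: `Finset.filter_card_add_filter_neg_card_eq_card`); the points with `g • (g • i) = i`, `g • i ≠ i` correspond to pairs via `i ↦ (i, g • i)`, inverse `p ↦ p.1`.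
`Nat.card_congr`, `Nat.card_sum` (needs `Finite` instances: automatic from `[Finite Ω]`). -/
theorem sq {H Ω : Type*} [Group H] [MulAction H Ω] [Finite Ω] (g : H) :
    fx Ω (g * g) = fx Ω g + sw Ω g := by
  classical
  unfold fx sw
  rw [← Nat.card_sum]
  apply Nat.card_congr
  refine
    { toFun := fun x => if h : g • x.1 = x.1 then Sum.inl ⟨x.1, h⟩
        else Sum.inr ⟨(x.1, g • x.1), fun h' => h h'.symm, rfl, by
          have := x.2
          rwa [mul_smul] at this⟩
      invFun := Sum.elim (fun x => ⟨x.1, by rw [mul_smul, x.2, x.2]⟩)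
        (fun p => ⟨p.1.1, by rw [mul_smul, p.2.2.1, p.2.2.2]⟩)
      left_inv := ?_
      right_inv := ?_ }
  · intro x
    by_cases h : g • x.1 = x.1
    · simp [h]
    · simp [h]
  · rintro (x | p)
    · simp [x.2]
    · have h : ¬ g • p.1.1 = p.1.1 := by
        rw [p.2.2.1]
        exact fun h' => p.2.1 h'.symm
      refine (dif_neg h).trans ?_
      congr 1
      apply Subtype.ext
      exact Prod.ext rfl p.2.2.1

end Cfsg.Agent.Lib.H83ACSq
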