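import Mathlib

set_option autoImplicit false

/-!
# Project 4560 (AC), piece SumsA (PURE MATHLIB, elementary)
-/

namespace Cfsg.Agent.Lib.H83ACSumsA

theorem p1 (m : ℕ) : m = m.descFactorial 1 := by simp

theorem p2 (m : ℕ) : m ^ 2 = m.descFactorial 2 + m.descFactorial 1 := by
  rcases m with _ | m
  · simp
  · simp [Nat.descFactorial_succ]
    ring

theorem p3 (m : ℕ) : m ^ 3 = m.descFactorial 3 + 3 * m.descFactorial 2 + m.descFactorial 1 := by
  rcases m with _ | _ | m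
  · simp
  · simp [Nat.descFactorial_succ]
  · simp [Nat.descFactorial_succ]
    ring

theorem p4 (m : ℕ) : m ^ 4 = m.descFactorial 4 + 6 * m.descFactorial 3 + 7 * m.descFactorial 2 +
    m.descFactorial 1 := by
  rcases m with _ | _ | _ | m
  · simp
  · simp [Nat.descFactorial_succ]
  · simp [Nat.descFactorial_succ]
  · simp [Nat.descFactorial_succ]
    ring

theorem sumsA {H : Type*} [Fintype H] (f : H → ℕ) (N : ℕ)
    (h1 : ∑ g, (f g).descFactorial 1 = N) (h2 : ∑ g, (f g).descFactorial 2 = N)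
    (h3 : ∑ g, (f g).descFactorial 3 = N) (h4 : ∑ g, (f g).descFactorial 4 = N) :
    (∑ g, (f g : ℤ) = N) ∧ (∑ g, (f g : ℤ) ^ 2 = 2 * N) ∧ (∑ g, (f g : ℤ) ^ 3 = 5 * N) ∧
      (∑ g, (f g : ℤ) ^ 4 = 15 * N) := by
  have e1 : ∑ g, f g = N := by
    rw [Finset.sum_congr rfl (fun g _ => p1 (f g)), h1]
  have e2 : ∑ g, f g ^ 2 = 2 * N := by
    rw [Finset.sum_congr rfl (fun g _ => p2 (f g))]
    simp only [Finset.sum_add_distrib, ← Finset.mul_sum]
    rw [h1, h2]; ring
  have e3 : ∑ g, f g ^ 3 = 5 * N := by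
    rw [Finset.sum_congr rfl (fun g _ => p3 (f g))]
    simp only [Finset.sum_add_distrib, ← Finset.mul_sum]
    rw [h1, h2, h3]; ring
  have e4 : ∑ g, f g ^ 4 = 15 * N := by
    rw [Finset.sum_congr rfl (fun g _ => p4 (f g))]
    simp only [Finset.sum_add_distrib, ← Finset.mul_sum]
    rw [h1, h2, h3, h4]; ring
  refine ⟨by exact_mod_cast e1, by exact_mod_cast e2, by exact_mod_cast e3, by exact_mod_cast e4⟩

end Cfsg.Agent.Lib.H83ACSumsA
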