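import Mathlib

set_option autoImplicit false

/-!
# Project 4560 (AC), piece SumsB (PURE MATHLIB, elementary)
-/

namespace Cfsg.Agent.Lib.H83ACSumsB

theorem q2 (m : ℕ) : m ^ 2 = m.descFactorial 2 + m.descFactorial 1 := by
  rcases m with _ | m
  · simp
  · simp [Nat.descFactorial_succ]
    ring

theorem sumsB {H : Type*} [Fintype H] (f s q : H → ℕ) (N : ℕ)
    (h0 : ∑ g, s g * (f g).descFactorial 0 = N) (h1 : ∑ g, s g * (f g).descFactorial 1 = N)
    (h2 : ∑ g, s g * (f g).descFactorial 2 = N) (hq : ∑ g, q g = N)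
    (hqs : ∀ g, q g + 2 * s g = s g ^ 2) :
    (∑ g, (s g : ℤ) = N) ∧ (∑ g, (f g : ℤ) * s g = N) ∧ (∑ g, (f g : ℤ) ^ 2 * s g = 2 * N) ∧
      (∑ g, (s g : ℤ) ^ 2 = 3 * N) := by
  have e0 : ∑ g, s g = N := by
    rw [← h0]
    exact Finset.sum_congr rfl (fun g _ => by simp)
  have e1 : ∑ g, f g * s g = N := by
    rw [← h1]
    exact Finset.sum_congr rfl (fun g _ => by simp [mul_comm])
  have e2 : ∑ g, f g ^ 2 * s g = 2 * N := by
    have : ∀ g, f g ^ 2 * s g = s g * (f g).descFactorial 2 + s g * (f g).descFactorial 1 := by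
      intro g
      rw [q2 (f g)]; ring
    rw [Finset.sum_congr rfl (fun g _ => this g), Finset.sum_add_distrib, h1, h2]
    ring
  have e3 : ∑ g, s g ^ 2 = 3 * N := by
    rw [Finset.sum_congr rfl (fun g _ => (hqs g).symm), Finset.sum_add_distrib, ← Finset.mul_sum,
      hq, e0]
    ring
  refine ⟨by exact_mod_cast e0, by exact_mod_cast e1, by exact_mod_cast e2, by exact_mod_cast e3⟩

end Cfsg.Agent.Lib.H83ACSumsB
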