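import Mathlib
import Cfsg.Agent.Lib.H83ACDefs

set_option autoImplicit false

/-!
# Project 4560 (AC), piece Sw (PURE MATHLIB)
-/

namespace Cfsg.Agent.Lib.H83ACSw

open Cfsg.Agent.Lib.H83ACDefs

/-- No 2-cycle ⇒ no interchanged pair.
PROOF.  Show the subtype is empty (`Nat.card_eq_zero`, `isEmpty_subtype`/`Nat.card_of_isEmpty`).  Let `i ≠ j`, `g i = j`, `g j = i` (`Equiv.Perm.smul_def`).  `c := g.cycleOf i` is a cycle (`Equiv.Perm.isCycle_cycleOf g (h : g i ≠ i)`), `c ∈ g.cycleFactorsFinset`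
(`Equiv.Perm.cycleOf_mem_cycleFactorsFinset_iff : f.cycleOf x ∈ f.cycleFactorsFinset ↔ x ∈ f.support`), `c i = g i` (`Equiv.Perm.cycleOf_apply_self`), `c (c i) = g (g i) = i` (`Equiv.Perm.cycleOf_apply_apply_self`/`cycleOf_apply` + `SameCycle`),
so `c = swap i (c i)` (`Equiv.Perm.IsCycle.eq_swap_of_apply_apply_eq_self`), `#c.support = 2` (`Equiv.Perm.card_support_swap`).  Finally `Equiv.Perm.cycleType_def : σ.cycleType = σ.cycleFactorsFinset.1.map (Finset.card ∘ support)` and `Multiset.mem_map` give `2 ∈ g.cycleType`.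
(Alternative: `Equiv.Perm.mem_cycleType_iff`.) -/
theorem sw_eq (n : ℕ) (g : Equiv.Perm (Fin n)) (h : 2 ∉ g.cycleType) : sw (Fin n) g = 0 := by
  classical
  unfold sw
  rw [Nat.card_eq_zero]
  left
  rw [isEmpty_subtype]
  rintro ⟨i, j⟩ ⟨hij, h1, h2⟩
  simp only [Equiv.Perm.smul_def] at hij h1 h2
  apply h
  have hgi : g i ≠ i := by rw [h1]; exact fun h' => hij h'.symm
  have hc : (g.cycleOf i).IsCycle := Equiv.Perm.isCycle_cycleOf g hgi
  have hmem : g.cycleOf i ∈ g.cycleFactorsFinset :=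
    Equiv.Perm.cycleOf_mem_cycleFactorsFinset_iff.2 (Equiv.Perm.mem_support.2 hgi)
  have e1 : g.cycleOf i i = j := by rw [Equiv.Perm.cycleOf_apply_self, h1]
  have e2 : g.cycleOf i j = i := by
    rw [← h1, Equiv.Perm.cycleOf_apply_apply_self, h1, h2]
  have hsw : g.cycleOf i = Equiv.swap i (g.cycleOf i i) :=
    Equiv.Perm.IsCycle.eq_swap_of_apply_apply_eq_self hc (by rw [e1]; exact fun h' => hij h'.symm)
      (by rw [e1, e2])
  rw [Equiv.Perm.cycleType_def, Multiset.mem_map]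
  refine ⟨g.cycleOf i, hmem, ?_⟩
  simp only [Function.comp]
  rw [hsw, e1, Equiv.Perm.card_support_swap hij]

end Cfsg.Agent.Lib.H83ACSw
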