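import Mathlib
import Cfsg.Agent.Lib.H83ACDefs
import Cfsg.Agent.Lib.H83ACMom
import Cfsg.Agent.Lib.H83ACCntA
import Cfsg.Agent.Lib.H83ACCntB
import Cfsg.Agent.Lib.H83ACCntQ
import Cfsg.Agent.Lib.H83ACSumsA
import Cfsg.Agent.Lib.H83ACSumsB
import Cfsg.Agent.Lib.H83ACNorm
import Cfsg.Agent.Lib.H83ACSq
import Cfsg.Agent.Lib.H83ACIrrOf
import Cfsg.Agent.Lib.H83ACGen
import Cfsg.Agent.Lib.H83ACInner
import Cfsg.Agent.Lib.H83ACDeg
import Cfsg.Agent.Lib.H83ACTrans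
import Cfsg.Agent.Lib.H83ACFx
import Cfsg.Agent.Lib.H83ACSw
import Cfsg.Agent.Lib.H83ACEltTwo
import Cfsg.Agent.Lib.H83ACEltThree
import Cfsg.Agent.Lib.H83ACEltSeven

set_option autoImplicit false

/-!
# Project 4560 (AC): assembly
-/

namespace Cfsg.Agent.Lib.H83ACMain

open Cfsg Cfsg.Agent.Lib.H83ACDefs

/-- For a 4-transitive finite group, `chi2` and `chi3` are irreducible characters. -/
theorem irr {H Ω : Type*} [Group H] [MulAction H Ω] [Fintype H] [Finite Ω]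
    [MulAction.IsMultiplyPretransitive H Ω 4] (hk : 4 ≤ Nat.card Ω) :
    IsIrrCharacter H (chi2 Ω) ∧ IsIrrCharacter H (chi3 Ω) := by
  have t : ∀ k, k ≤ 4 → MulAction.IsMultiplyPretransitive H Ω k := fun k hk' =>
    MulAction.isMultiplyPretransitive_of_le hk' hk
  have mA : ∀ k, k ≤ 4 → ∑ g : H, (fx Ω g).descFactorial k = Nat.card H := by
    intro k hk'
    have := t k hk'
    have h := H83ACMom.mom (H := H) (Ω := Ω) k (hk'.trans hk) 1
    rw [← h]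
    exact Finset.sum_congr rfl (fun g _ => (H83ACCntA.cntA k g).symm)
  have mB : ∀ k, k + 2 ≤ 4 → ∑ g : H, sw Ω g * (fx Ω g).descFactorial k = Nat.card H := by
    intro k hk'
    have := t (k + 2) hk'
    have h := H83ACMom.mom (H := H) (Ω := Ω) (k + 2) (hk'.trans hk) (Equiv.swap 0 1)
    rw [← h]
    exact Finset.sum_congr rfl (fun g _ => (H83ACCntB.cntB k g).symm)
  have mQ := H83ACMom.mom (H := H) (Ω := Ω) 4 hk (Equiv.swap (0 : Fin 4) 1 * Equiv.swap (2 : Fin 4) 3)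
  obtain ⟨a1, a2, a3, a4⟩ := H83ACSumsA.sumsA (fun g : H => fx Ω g) (Nat.card H)
    (mA 1 (by norm_num)) (mA 2 (by norm_num)) (mA 3 (by norm_num)) (mA 4 le_rfl)
  obtain ⟨b0, b1, b2, b3⟩ := H83ACSumsB.sumsB (fun g : H => fx Ω g) (fun g : H => sw Ω g)
    (fun g : H => pat Ω (Equiv.swap (0 : Fin 4) 1 * Equiv.swap (2 : Fin 4) 3) g) (Nat.card H)
    (mB 0 (by norm_num)) (mB 1 (by norm_num)) (mB 2 le_rfl) mQ (fun g => H83ACCntQ.cntQ g)
  obtain ⟨n2, n3⟩ := H83ACNorm.norm (fun g : H => fx Ω g) (fun g : H => sw Ω g) (Nat.card H)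
    Nat.card_eq_fintype_card.symm a1 a2 a3 a4 b0 b1 b2 b3
  obtain ⟨g2, g3⟩ := H83ACGen.gen (H := H) (Ω := Ω) (fun g => H83ACSq.sq g)
  obtain ⟨m2, hm2⟩ := H83ACDeg.deg2 (H := H) (Ω := Ω) (by omega)
  obtain ⟨m3, hm3⟩ := H83ACDeg.deg3 (H := H) (Ω := Ω) (by omega)
  exact ⟨H83ACIrrOf.irrOf _ g2 (H83ACInner.inner2 n2) m2 hm2,
    H83ACIrrOf.irrOf _ g3 (H83ACInner.inner3 n3) m3 hm3⟩

theorem chi2_zero {H Ω : Type*} [Group H] [MulAction H Ω] (g : H) (hs : sw Ω g = 0)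
    (hf : fx Ω g = 0 ∨ fx Ω g = 3) : chi2 Ω g = 0 := by
  unfold chi2
  rcases hf with hf | hf <;> rw [hf, hs] <;> norm_num

theorem chi3_zero {H Ω : Type*} [Group H] [MulAction H Ω] (g : H) (hs : sw Ω g = 0)
    (hf : fx Ω g = 1 ∨ fx Ω g = 2) : chi3 Ω g = 0 := by
  unfold chi3
  rcases hf with hf | hf <;> rw [hf, hs] <;> norm_num

/-- the key packaging: an even permutation at which `chi2` or `chi3` vanishes gives the conclusion. -/
theorem package (n : ℕ) (hn : 6 ≤ n) (P : alternatingGroup (Fin n) → Prop)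
    (g : Equiv.Perm (Fin n)) (hg : Equiv.Perm.sign g = 1)
    (hP : P ⟨g, Equiv.Perm.mem_alternatingGroup.2 hg⟩)
    (hz : chi2 (Fin n) g = 0 ∨ chi3 (Fin n) g = 0) :
    ∃ χ : IrrCharacter (alternatingGroup (Fin n)),
      (∃ x : alternatingGroup (Fin n), P x ∧ (χ : alternatingGroup (Fin n) → ℂ) x = 0) ∧
      ∃ ψ : IrrCharacter (Equiv.Perm (Fin n)), ∀ x : alternatingGroup (Fin n),
        (ψ : Equiv.Perm (Fin n) → ℂ) x = (χ : alternatingGroup (Fin n) → ℂ) x := by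
  have hA := H83ACTrans.transA n hn
  have hS := H83ACTrans.transS n
  have hc : 4 ≤ Nat.card (Fin n) := by rw [Nat.card_eq_fintype_card, Fintype.card_fin]; omega
  obtain ⟨A2, A3⟩ := irr (H := alternatingGroup (Fin n)) (Ω := Fin n) hc
  obtain ⟨S2, S3⟩ := irr (H := Equiv.Perm (Fin n)) (Ω := Fin n) hc
  rcases hz with hz | hz
  · exact ⟨⟨_, A2⟩, ⟨⟨g, Equiv.Perm.mem_alternatingGroup.2 hg⟩, hP, hz⟩, ⟨_, S2⟩, fun x => rfl⟩
  · exact ⟨⟨_, A3⟩, ⟨⟨g, Equiv.Perm.mem_alternatingGroup.2 hg⟩, hP, hz⟩, ⟨_, S3⟩, fun x => rfl⟩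

theorem main (n : ℕ) (hn : 7 ≤ n) :
    (∃ χ : IrrCharacter (alternatingGroup (Fin n)),
      (∃ x : alternatingGroup (Fin n), (∃ j : ℕ, orderOf x = 2 ^ j) ∧
        (χ : alternatingGroup (Fin n) → ℂ) x = 0) ∧
      ∃ ψ : IrrCharacter (Equiv.Perm (Fin n)), ∀ x : alternatingGroup (Fin n),
        (ψ : Equiv.Perm (Fin n) → ℂ) x = (χ : alternatingGroup (Fin n) → ℂ) x) ∧
    (∃ χ : IrrCharacter (alternatingGroup (Fin n)),
      (∃ y : alternatingGroup (Fin n), orderOf y = 3 ∧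
        (χ : alternatingGroup (Fin n) → ℂ) y = 0) ∧
      ∃ ψ : IrrCharacter (Equiv.Perm (Fin n)), ∀ x : alternatingGroup (Fin n),
        (ψ : Equiv.Perm (Fin n) → ℂ) x = (χ : alternatingGroup (Fin n) → ℂ) x) := by
  constructor
  · rcases Nat.lt_or_ge n 8 with h8 | h8
    · obtain rfl : n = 7 := by omega
      obtain ⟨g, hg, ho, hf, hs⟩ := H83ACEltSeven.eltSeven
      refine package 7 (by norm_num) (fun x => ∃ j : ℕ, orderOf x = 2 ^ j) g hg
        ⟨2, by rw [Subgroup.orderOf_mk, ho]; norm_num⟩ (Or.inl ?_)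
      unfold chi2
      rw [hf, hs]; norm_num
    · obtain ⟨g, hg, ⟨j, ho⟩, hsum, h2⟩ := H83ACEltTwo.eltTwo n h8
      have hf := H83ACFx.fx_eq n g
      have hs := H83ACSw.sw_eq n g h2
      have hfx : fx (Fin n) g = n % 4 := by omega
      refine package n (by omega) (fun x => ∃ j : ℕ, orderOf x = 2 ^ j) g hg
        ⟨j, by rw [Subgroup.orderOf_mk, ho]⟩ ?_
      have h4 : n % 4 < 4 := Nat.mod_lt _ (by norm_num)
      have : fx (Fin n) g = 0 ∨ fx (Fin n) g = 3 ∨ fx (Fin n) g = 1 ∨ fx (Fin n) g = 2 := by omega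
      rcases this with h | h | h | h
      · exact Or.inl (chi2_zero g hs (Or.inl h))
      · exact Or.inl (chi2_zero g hs (Or.inr h))
      · exact Or.inr (chi3_zero g hs (Or.inl h))
      · exact Or.inr (chi3_zero g hs (Or.inr h))
  · obtain ⟨g, hg, ho, hsum, h2⟩ := H83ACEltThree.eltThree n (by omega)
    have hf := H83ACFx.fx_eq n g
    have hs := H83ACSw.sw_eq n g h2
    have hfx : fx (Fin n) g = n % 3 := by omega
    refine package n (by omega) (fun x => orderOf x = 3) g hg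
      (by rw [Subgroup.orderOf_mk, ho]) ?_
    have h3 : n % 3 < 3 := Nat.mod_lt _ (by norm_num)
    have : fx (Fin n) g = 0 ∨ fx (Fin n) g = 1 ∨ fx (Fin n) g = 2 := by omega
    rcases this with h | h | h
    · exact Or.inl (chi2_zero g hs (Or.inl h))
    · exact Or.inr (chi3_zero g hs (Or.inl h))
    · exact Or.inr (chi3_zero g hs (Or.inr h))

end Cfsg.Agent.Lib.H83ACMain
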