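import Mathlib

set_option autoImplicit false

/-!
# Project 4560 (AC), piece Trans (PURE MATHLIB)
-/

namespace Cfsg.Agent.Lib.H83ACTrans

/-- PROOF.  `alternatingGroup.isMultiplyPretransitive (Fin n) : IsMultiplyPretransitive (alternatingGroup (Fin n)) (Fin n) (Nat.card (Fin n) - 2)`, `Nat.card_fin`/`Nat.card_eq_fintype_card`, `Fintype.card_fin`,
and `MulAction.isMultiplyPretransitive_of_le` (`n ≤ m`, `m`-transitive, `m ≤ ENat.card α` ⇒ `n`-transitive; check its exact hypotheses with `#check`). -/
theorem transA (n : ℕ) (hn : 6 ≤ n) :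
    MulAction.IsMultiplyPretransitive (alternatingGroup (Fin n)) (Fin n) 4 := by
  have h := alternatingGroup.isMultiplyPretransitive (Fin n)
  rw [Nat.card_eq_fintype_card, Fintype.card_fin] at h
  haveI := h
  exact MulAction.isMultiplyPretransitive_of_le (m := 4) (n := n - 2) (by omega)
    (by rw [Nat.card_eq_fintype_card, Fintype.card_fin]; omega)

/-- PROOF.  `Equiv.Perm.isMultiplyPretransitive (Fin n) 4`. -/
theorem transS (n : ℕ) : MulAction.IsMultiplyPretransitive (Equiv.Perm (Fin n)) (Fin n) 4 :=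
  Equiv.Perm.isMultiplyPretransitive (Fin n) 4

end Cfsg.Agent.Lib.H83ACTrans
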