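import Mathlib
import Cfsg.Agent.Lib.Helper3TwoMax

set_option autoImplicit false

/-! PROJECT 4923, piece Comm. -/

namespace Cfsg.Agent.Lib.H83FVComm

theorem commutator_index_eq_four {P : Type*} [Group P] [Finite P] (n : ℕ) (hn : 2 ≤ n)
    (hP : Nat.card P = 2 ^ n) (hna : ∃ x y : P, x * y ≠ y * x) (c : P) (hc : c ∈ commutator P)
    (hord : 2 ^ (n - 2) ∣ orderOf c) : (commutator P).index = 4 := by
  haveI : Fact (Nat.Prime 2) := ⟨Nat.prime_two⟩
  have hpg : IsPGroup 2 P := IsPGroup.of_card hP
  obtain ⟨m, rfl⟩ : ∃ m, n = m + 2 := ⟨n - 2, by omega⟩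
  simp only [Nat.add_sub_cancel] at hord
  have h1 : orderOf c ∣ Nat.card (commutator P) := by
    have := orderOf_dvd_natCard (⟨c, hc⟩ : ↥(commutator P))
    rwa [Subgroup.orderOf_mk] at this
  obtain ⟨t, ht⟩ := hord.trans h1
  have h2 := (commutator P).card_mul_index
  rw [hP, ht] at h2
  have h3 : t * (commutator P).index = 4 := by
    have h4 : 2 ^ m * (t * (commutator P).index) = 2 ^ m * 4 := by
      rw [← mul_assoc, h2, pow_add]
      norm_num
    exact Nat.eq_of_mul_eq_mul_left (by positivity) h4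
  have hdvd : (commutator P).index ∣ 4 := Dvd.intro_left t h3
  have hcases : (commutator P).index = 1 ∨ (commutator P).index = 2 ∨ (commutator P).index = 4 := by
    generalize (commutator P).index = i at hdvd
    have hle : i ≤ 4 := Nat.le_of_dvd (by norm_num) hdvd
    interval_cases i
    · norm_num at hdvd
    · exact Or.inl rfl
    · exact Or.inr (Or.inl rfl)
    · norm_num at hdvd
    · exact Or.inr (Or.inr rfl)
  have hcyc : IsCyclic (P ⧸ commutator P) → False := by
    intro hcy
    have := Cfsg.Agent.Lib.Helper3TwoMax.isCyclic_of_isCyclic_abelianization hpg hcy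
    obtain ⟨x, y, hxy⟩ := hna
    obtain ⟨γ, hγ⟩ := this.exists_generator
    obtain ⟨i, rfl⟩ := Subgroup.mem_zpowers_iff.1 (hγ x)
    obtain ⟨j, rfl⟩ := Subgroup.mem_zpowers_iff.1 (hγ y)
    exact hxy (by rw [← zpow_add, ← zpow_add, add_comm])
  rcases hcases with h | h | h
  · exfalso
    apply hcyc
    have : Nat.card (P ⧸ commutator P) = 1 := h
    have hs : Subsingleton (P ⧸ commutator P) := (Nat.card_eq_one_iff_unique.1 this).1
    exact isCyclic_of_subsingleton
  · exfalso
    apply hcyc
    have : Nat.card (P ⧸ commutator P) = 2 := h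
    exact isCyclic_of_prime_card this
  · exact h

end Cfsg.Agent.Lib.H83FVComm
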