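import Mathlib

set_option autoImplicit false

/-! PROJECT 4923, piece Conj (pure Mathlib group theory, est 40m).

`g` has order `2^(n-1)`, `2^(n+1)` does not divide `|G|`, and `x₀ g x₀⁻¹ = g^r ≠ g`.
Put `C = zpowers g`, `Nn = normalizer C`, `Cc = centralizer C`.
`Subgroup.normalizerMonoidHom C : Nn →* MulAut C` has kernel `Cc.subgroupOf Nn`
(`Subgroup.normalizerMonoidHom_ker`), so `Cc.relIndex Nn` divides `Nat.card (MulAut C)`
`= φ(2^(n-1))` (`IsCyclic.card_mulAut`), a power of 2 (see the proof of
`IsCyclic.normalizer_le_centralizer` in Mathlib/GroupTheory/Transfer.lean for exactly this step).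
As `C ≤ Cc`, `2^(n-1) ∣ |Cc|`, and `|Cc| * Cc.relIndex Nn = |Nn| ∣ |G|`; so `relIndex ∣ 2`; it is not `1`
because `x₀ ∈ Nn \ Cc`.  So `Cc` has index 2 in `Nn`: every `x ∈ Nn` lies in `Cc` or in `x₀ Cc`
(`Subgroup.mul_mem_iff_of_index_two`), which gives the dichotomy; and `2 = relIndex ∣ Cc.index`. -/

namespace Cfsg.Agent.Lib.H83FVConj

open Subgroup

theorem conj_dichotomy {G : Type*} [Group G] [Finite G] (n : ℕ) (g x₀ : G) (r : ℕ)
    (hg : orderOf g = 2 ^ (n - 1)) (hG : ¬ 2 ^ (n + 1) ∣ Nat.card G)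
    (hx : x₀ * g * x₀⁻¹ = g ^ r) (hne : g ^ r ≠ g) :
    (∀ x : G, x * g * x⁻¹ ∈ Subgroup.zpowers g → x * g * x⁻¹ = g ∨ x * g * x⁻¹ = g ^ r) ∧
    2 ∣ (Subgroup.centralizer ({g} : Set G)).index := by
  set C := zpowers g with hC
  have hmemcen : ∀ x : G, x ∈ centralizer (C : Set G) ↔ x * g * x⁻¹ = g := by
    intro x
    constructor
    · intro h
      have := (mem_centralizer_iff.mp h) g (mem_zpowers g)
      rw [← this]; group
    · intro h
      rw [mem_centralizer_iff]
      intro y hy
      obtain ⟨k, rfl⟩ := mem_zpowers_iff.mp hy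
      have h1 : Commute x g := by
        rw [mul_inv_eq_iff_eq_mul] at h
        exact h
      exact (h1.zpow_right k).eq.symm
  have hcen : centralizer (C : Set G) = centralizer ({g} : Set G) := by
    ext x
    rw [hmemcen, mem_centralizer_singleton_iff, mul_inv_eq_iff_eq_mul]
  -- membership in the normalizer
  have hnorm : ∀ x : G, x * g * x⁻¹ ∈ C → x ∈ normalizer (C : Set G) := by
    intro x hx1
    rw [mem_normalizer_iff_map_conj_eq]
    apply Subgroup.eq_of_le_of_card_ge
    · rintro _ ⟨y, hy, rfl⟩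
      obtain ⟨k, rfl⟩ := mem_zpowers_iff.mp hy
      show x * g ^ k * x⁻¹ ∈ C
      rw [← conj_zpow]
      exact C.zpow_mem hx1 k
    · rw [Subgroup.card_map_of_injective (MulAut.conj x).injective]
  have hCcyc : IsCyclic C := inferInstance
  have key := card_dvd_of_injective _ (QuotientGroup.kerLift_injective C.normalizerMonoidHom)
  rw [normalizerMonoidHom_ker, ← index, ← relIndex, hCcyc.card_mulAut, Nat.card_zpowers, hg] at key
  have hle : centralizer (C : Set G) ≤ normalizer (C : Set G) := centralizer_le_normalizer _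
  have hCle : C ≤ centralizer (C : Set G) := by
    intro y hy
    obtain ⟨k, rfl⟩ := mem_zpowers_iff.mp hy
    rw [hmemcen]
    have : Commute (g ^ k) g := (Commute.refl g).zpow_left k
    rw [this.eq]; group
  -- relIndex is a power of two
  obtain ⟨j, hj⟩ : ∃ j, (centralizer (C : Set G)).relIndex (normalizer (C : Set G)) = 2 ^ j := by
    have h1 : Nat.totient (2 ^ (n - 1)) ∣ 2 ^ (n - 1) := by
      rcases Nat.eq_zero_or_pos (n - 1) with h0 | h0
      · rw [h0]; simp
      · rw [Nat.totient_prime_pow Nat.prime_two h0]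
        simp only [Nat.add_one_sub_one, mul_one]
        exact pow_dvd_pow 2 (by omega)
    obtain ⟨j, -, hj⟩ := (Nat.dvd_prime_pow Nat.prime_two).mp (key.trans h1)
    exact ⟨j, hj⟩
  have hx₀N : x₀ ∈ normalizer (C : Set G) := hnorm x₀ (by rw [hx]; exact C.pow_mem (mem_zpowers g) r)
  have hx₀C : x₀ ∉ centralizer (C : Set G) := by
    rw [hmemcen, hx]; exact hne
  have hj1 : j = 1 := by
    have h0 : j ≠ 0 := by
      rintro rfl
      rw [pow_zero, relIndex_eq_one] at hj
      exact hx₀C (hj hx₀N)
    have h1 : 2 ^ (n - 1) ∣ Nat.card (centralizer (C : Set G)) := by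
      have := Subgroup.card_dvd_of_le hCle
      rwa [Nat.card_zpowers, hg] at this
    have h2 : Nat.card (centralizer (C : Set G)) * 2 ^ j ∣ Nat.card G := by
      have h3 := ((centralizer (C : Set G)).subgroupOf (normalizer (C : Set G))).card_mul_index
      rw [Nat.card_congr (subgroupOfEquivOfLe hle).toEquiv] at h3
      have h4 : ((centralizer (C : Set G)).subgroupOf (normalizer (C : Set G))).index = 2 ^ j := hj
      rw [h4] at h3
      rw [h3]
      exact Subgroup.card_subgroup_dvd_card _
    by_contra hj2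
    apply hG
    have hn0 : n ≠ 0 := by
      rintro rfl
      simp only [zero_tsub, pow_zero, orderOf_eq_one_iff] at hg
      rw [hg] at hne
      simp at hne
    have h3 : 2 ^ (n + 1) ∣ 2 ^ (n - 1) * 2 ^ j := by
      rw [← pow_add]
      exact pow_dvd_pow 2 (by omega)
    exact h3.trans ((Nat.mul_dvd_mul_right h1 _).trans h2)
  rw [hj1, pow_one] at hj
  constructor
  · intro x hx1
    have hxN := hnorm x hx1
    by_cases hxC : x ∈ centralizer (C : Set G)
    · left; exact (hmemcen x).mp hxC
    · right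
      have hidx : ((centralizer (C : Set G)).subgroupOf (normalizer (C : Set G))).index = 2 := hj
      have h1 := (Subgroup.mul_mem_iff_of_index_two hidx
        (a := (⟨x₀, hx₀N⟩ : normalizer (C : Set G))⁻¹) (b := ⟨x, hxN⟩)).mpr
        (by
          rw [inv_mem_iff, mem_subgroupOf, mem_subgroupOf]
          exact iff_of_false hx₀C hxC)
      rw [mem_subgroupOf] at h1
      have h2 := (hmemcen _).mp h1
      simp only [Subgroup.coe_mul, InvMemClass.coe_inv] at h2
      rw [← hx]
      have : x * g * x⁻¹ = x₀ * (x₀⁻¹ * x * g * (x₀⁻¹ * x)⁻¹) * x₀⁻¹ := by group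
      rw [this, h2]
  · rw [← hcen, ← hj]
    exact relIndex_dvd_index_of_le hle

end Cfsg.Agent.Lib.H83FVConj
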