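import Mathlib

set_option autoImplicit false

/-! PROJECT 4923, piece Cyc (pure Mathlib field theory). -/

namespace Cfsg.Agent.Lib.H83FVCyc

theorem pow_add_pow_mem (K : IntermediateField ℚ ℂ) (x y : ℂ) (hs : x + y ∈ K) (hp : x * y ∈ K)
    (j : ℕ) : x ^ j + y ^ j ∈ K := by
  have key : ∀ j : ℕ, x ^ j + y ^ j ∈ K ∧ x ^ (j + 1) + y ^ (j + 1) ∈ K := by
    intro j
    induction j with
    | zero =>
      refine ⟨?_, by simpa using hs⟩
      have : x ^ 0 + y ^ 0 = ((2 : ℕ) : ℂ) := by norm_num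
      rw [this]
      exact K.natCast_mem 2
    | succ j ih =>
      refine ⟨ih.2, ?_⟩
      have : x ^ (j + 1 + 1) + y ^ (j + 1 + 1)
          = (x + y) * (x ^ (j + 1) + y ^ (j + 1)) - x * y * (x ^ j + y ^ j) := by ring
      rw [this]
      exact K.sub_mem (K.mul_mem hs ih.2) (K.mul_mem hp ih.1)
  exact (key j).1

private theorem finrank_adjoin_prim (n : ℕ) (hn : 0 < n) (ζ : ℂ) (hζ : IsPrimitiveRoot ζ n) :
    Module.finrank ℚ (IntermediateField.adjoin ℚ ({ζ} : Set ℂ)) = Nat.totient n := by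
  have hint : IsIntegral ℚ ζ := (hζ.isIntegral hn).tower_top
  rw [IntermediateField.adjoin.finrank hint, ← Polynomial.cyclotomic_eq_minpoly_rat hζ hn,
    Polynomial.natDegree_cyclotomic]

theorem not_mem_adjoin_sq (k : ℕ) (hk : 2 ≤ k) (ζ : ℂ) (hζ : IsPrimitiveRoot ζ (2 ^ k)) :
    ζ ∉ IntermediateField.adjoin ℚ ({ζ ^ 2} : Set ℂ) := by
  intro hmem
  obtain ⟨m, rfl⟩ : ∃ m, k = m + 2 := ⟨k - 2, by omega⟩
  have hζ2 : IsPrimitiveRoot (ζ ^ 2) (2 ^ (m + 1)) := by
    apply hζ.pow (by positivity)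
    rw [pow_succ 2 (m + 1), mul_comm]
  have h1 := finrank_adjoin_prim (2 ^ (m + 2)) (by positivity) ζ hζ
  have h2 := finrank_adjoin_prim (2 ^ (m + 1)) (by positivity) (ζ ^ 2) hζ2
  rw [Nat.totient_prime_pow_succ Nat.prime_two] at h1 h2
  have hle : IntermediateField.adjoin ℚ ({ζ} : Set ℂ) ≤ IntermediateField.adjoin ℚ ({ζ ^ 2} : Set ℂ) := by
    rw [IntermediateField.adjoin_le_iff]
    intro x hx
    rw [Set.mem_singleton_iff] at hx
    rw [hx]
    exact hmem
  have hint : IsIntegral ℚ (ζ ^ 2) := (hζ2.isIntegral (by positivity)).tower_top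
  haveI : FiniteDimensional ℚ (IntermediateField.adjoin ℚ ({ζ ^ 2} : Set ℂ)) :=
    IntermediateField.adjoin.finiteDimensional hint
  have h3 := IntermediateField.finrank_le_of_le_right hle
  rw [h1, h2] at h3
  have : 2 ^ (m + 1) = 2 * 2 ^ m := by ring
  have hpos : 0 < 2 ^ m := by positivity
  omega

end Cfsg.Agent.Lib.H83FVCyc
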