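import Mathlib
import Cfsg.Prelude.Def_Characters
import Cfsg.Agent.Lib.Helper4Eigen
import Cfsg.Agent.Lib.Helper4Char4

set_option autoImplicit false

/-! PROJECT 4923, piece Eig. -/

namespace Cfsg.Agent.Lib.H83FVEig

theorem values_mem {G : Type*} [Group G] [Finite G] (g x₀ : G) (r : ℕ)
    (hx : x₀ * g * x₀⁻¹ = g ^ r) (K : IntermediateField ℚ ℂ)
    (hK : ∀ μ : ℂ, μ ^ orderOf g = 1 → μ + μ ^ r ∈ K) (χ : Cfsg.IrrCharacter G) :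
    (χ : G → ℂ) g ∈ K := by
  have hcl := Cfsg.Agent.Lib.Helper4Char.IsIrrCharacter.isClassFunction χ.2
  obtain ⟨n, ρ, _, hρ⟩ := χ.2
  obtain ⟨μ, h1, _, h3, h4, _⟩ := Cfsg.Agent.Lib.Helper4Eigen.exists_eigenvalues ρ g
  have h5 : (χ : G → ℂ) (g ^ r) = (χ : G → ℂ) g := by
    rw [← hx]
    exact hcl g x₀
  have h6 : (2 : ℂ) * (χ : G → ℂ) g = ∑ i, (μ i + μ i ^ r) := by
    rw [Finset.sum_add_distrib, ← h4, ← h3 r, hρ, h5]
    ring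
  have h7 : (2 : ℂ) * (χ : G → ℂ) g ∈ K := by
    rw [h6]
    exact K.sum_mem fun i _ => hK _ (h1 i)
  have h8 : (χ : G → ℂ) g = (2 : ℂ)⁻¹ * ((2 : ℂ) * (χ : G → ℂ) g) := by
    field_simp
  rw [h8]
  refine K.mul_mem (K.inv_mem ?_) h7
  exact_mod_cast K.natCast_mem 2

end Cfsg.Agent.Lib.H83FVEig
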