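import Mathlib
import Cfsg.Prelude.Def_Characters
import Cfsg.Agent.Lib.Helper19Cliff
import Cfsg.Agent.Lib.Helper19Lin
import Cfsg.Agent.Lib.Helper4Char4

set_option autoImplicit false

/-! PROJECT 4923, piece Ind. -/

namespace Cfsg.Agent.Lib.H83FVInd

open Cfsg.Agent.Lib.Helper19Cliff Cfsg.Agent.Lib.Helper19Lin

/-- a linear character of `⟨g⟩` with a prescribed value at `g`. -/
private theorem exists_lam {G : Type*} [Group G] [Finite G] (g : G) (ζ : ℂ)
    (hζ : ζ ^ orderOf g = 1) :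
    ∃ lam : ↥(Subgroup.zpowers g) →* ℂˣ,
      ∀ (k : ℕ) (h : g ^ k ∈ Subgroup.zpowers g), ((lam ⟨g ^ k, h⟩ : ℂˣ) : ℂ) = ζ ^ k := by
  have h0 : ζ ≠ 0 := by
    rintro rfl
    rw [zero_pow (orderOf_pos g).ne'] at hζ
    exact zero_ne_one hζ
  let u : ℂˣ := Units.mk0 ζ h0
  let γ : ↥(Subgroup.zpowers g) := ⟨g, Subgroup.mem_zpowers g⟩
  have hgen : ∀ x : ↥(Subgroup.zpowers g), x ∈ Subgroup.zpowers γ := by
    rintro ⟨x, hx⟩
    obtain ⟨k, rfl⟩ := Subgroup.mem_zpowers_iff.1 hx
    exact Subgroup.mem_zpowers_iff.2 ⟨k, Subtype.ext (by simp [γ])⟩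
  have hord : orderOf u ∣ orderOf γ := by
    rw [Subgroup.orderOf_mk]
    apply orderOf_dvd_of_pow_eq_one
    apply Units.ext
    simpa [u] using hζ
  refine ⟨monoidHomOfForallMemZpowers hgen hord, fun k h => ?_⟩
  have e : (⟨g ^ k, h⟩ : ↥(Subgroup.zpowers g)) = γ ^ k := Subtype.ext (by simp [γ])
  rw [e, map_pow, monoidHomOfForallMemZpowers_apply_gen]
  simp [u]

theorem sum_mem_adjoin {G : Type*} [Group G] [Finite G] (g x₀ : G) (r : ℕ) (ζ : ℂ)
    (hζ : ζ ^ orderOf g = 1)
    (hx : x₀ * g * x₀⁻¹ = g ^ r) (hne : g ^ r ≠ g)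
    (hdich : ∀ x : G, x * g * x⁻¹ ∈ Subgroup.zpowers g → x * g * x⁻¹ = g ∨ x * g * x⁻¹ = g ^ r) :
    ζ + ζ ^ r ∈ IntermediateField.adjoin ℚ
      {z : ℂ | ∃ χ : Cfsg.IrrCharacter G, (χ : G → ℂ) g = z} := by
  classical
  haveI : Fintype G := Fintype.ofFinite G
  set K := IntermediateField.adjoin ℚ {z : ℂ | ∃ χ : Cfsg.IrrCharacter G, (χ : G → ℂ) g = z}
    with hKdef
  obtain ⟨lam, hlam⟩ := exists_lam g ζ hζ
  have hchar : Cfsg.IsCharacter G (ind (Subgroup.zpowers g).subtype (homFun lam)) :=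
    ind_isCharacter _ (isCharacter_homFun lam)
  -- the value lies in `K`
  have hmem : ind (Subgroup.zpowers g).subtype (homFun lam) g ∈ K := by
    obtain ⟨m, hm, _⟩ := Cfsg.Agent.Lib.Helper4Char4.IsCharacter.eq_sum_nat hchar
    rw [hm, Finset.sum_apply]
    refine K.sum_mem fun χ _ => ?_
    rw [Pi.smul_apply, smul_eq_mul]
    refine K.mul_mem (K.natCast_mem _) ?_
    exact IntermediateField.subset_adjoin _ _ ⟨χ, rfl⟩
  -- evaluation of the inner sums
  have hinner : ∀ x : G, (∑ c : ↥(Subgroup.zpowers g), if (Subgroup.zpowers g).subtype c = x⁻¹ * g * x then homFun lam c else 0)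
      = (if x⁻¹ * g * x = g then ζ else 0) + (if x⁻¹ * g * x = g ^ r then ζ ^ r else 0) := by
    intro x
    by_cases hxC : x⁻¹ * g * x ∈ Subgroup.zpowers g
    · rw [Finset.sum_eq_single (⟨x⁻¹ * g * x, hxC⟩ : ↥(Subgroup.zpowers g))]
      · rw [if_pos (show (Subgroup.zpowers g).subtype ⟨x⁻¹ * g * x, hxC⟩ = x⁻¹ * g * x from rfl)]
        have h1 := hdich x⁻¹ (by rw [inv_inv]; exact hxC)
        rw [inv_inv] at h1
        rcases h1 with h1 | h1
        · rw [if_pos h1, if_neg (by rw [h1]; exact hne.symm), add_zero, homFun_apply]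
          have h2 := hlam 1 (by rw [pow_one]; exact Subgroup.mem_zpowers g)
          have e : (⟨x⁻¹ * g * x, hxC⟩ : ↥(Subgroup.zpowers g))
              = ⟨g ^ 1, by rw [pow_one]; exact Subgroup.mem_zpowers g⟩ :=
            Subtype.ext (by simp [h1])
          rw [e, h2, pow_one]
        · rw [if_neg (by rw [h1]; exact hne), if_pos h1, zero_add, homFun_apply]
          have h2 := hlam r (Subgroup.pow_mem _ (Subgroup.mem_zpowers g) r)
          have e : (⟨x⁻¹ * g * x, hxC⟩ : ↥(Subgroup.zpowers g))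
              = ⟨g ^ r, Subgroup.pow_mem _ (Subgroup.mem_zpowers g) r⟩ :=
            Subtype.ext (by simp [h1])
          rw [e, h2]
      · intro c _ hc
        rw [if_neg]
        intro h
        exact hc (Subtype.ext h)
      · intro h; exact absurd (Finset.mem_univ _) h
    · rw [Finset.sum_eq_zero, if_neg, if_neg, add_zero]
      · intro h
        exact hxC (by rw [h]; exact Subgroup.pow_mem _ (Subgroup.mem_zpowers g) r)
      · intro h
        exact hxC (by rw [h]; exact Subgroup.mem_zpowers g)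
      · intro c _
        rw [if_neg]
        intro h
        exact hxC (by rw [← h]; exact c.2)
  have hshift : (∑ x : G, if x⁻¹ * g * x = g ^ r then ζ ^ r else 0)
      = ∑ x : G, if x⁻¹ * g * x = g then ζ ^ r else 0 := by
    symm
    refine Fintype.sum_equiv (Equiv.mulRight x₀⁻¹) _ _ fun x => ?_
    have h1 : ((Equiv.mulRight x₀⁻¹) x)⁻¹ * g * (Equiv.mulRight x₀⁻¹) x
        = x₀ * (x⁻¹ * g * x) * x₀⁻¹ := by
      simp only [Equiv.coe_mulRight]
      group
    rw [h1, ← hx]
    by_cases h2 : x⁻¹ * g * x = g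
    · rw [if_pos h2, if_pos (by rw [h2])]
    · rw [if_neg h2, if_neg]
      intro h3
      apply h2
      have h4 := mul_right_cancel h3
      exact mul_left_cancel h4
  have hval : ind (Subgroup.zpowers g).subtype (homFun lam) g
      = (Nat.card ↥(Subgroup.zpowers g) : ℂ)⁻¹ * (((Finset.univ.filter fun x : G => x⁻¹ * g * x = g).card : ℂ)
          * (ζ + ζ ^ r)) := by
    rw [ind_apply]
    congr 1
    calc (∑ x : G, ∑ c : ↥(Subgroup.zpowers g), if (Subgroup.zpowers g).subtype c = x⁻¹ * g * x then homFun lam c else 0)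
        = ∑ x : G, ((if x⁻¹ * g * x = g then ζ else 0)
            + (if x⁻¹ * g * x = g ^ r then ζ ^ r else 0)) := by
          refine Finset.sum_congr rfl fun x _ => ?_
          convert hinner x
      _ = (∑ x : G, if x⁻¹ * g * x = g then ζ else 0)
            + ∑ x : G, if x⁻¹ * g * x = g then ζ ^ r else 0 := by
          rw [Finset.sum_add_distrib, hshift]
      _ = _ := by
          rw [← Finset.sum_filter, ← Finset.sum_filter, Finset.sum_const, Finset.sum_const,
            nsmul_eq_mul, nsmul_eq_mul]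
          ring
  have hm0 : ((Finset.univ.filter fun x : G => x⁻¹ * g * x = g).card : ℂ) ≠ 0 := by
    have : 0 < (Finset.univ.filter fun x : G => x⁻¹ * g * x = g).card := by
      apply Finset.card_pos.2
      exact ⟨1, by simp⟩
    exact_mod_cast this.ne'
  have hC0 : (Nat.card ↥(Subgroup.zpowers g) : ℂ) ≠ 0 := by exact_mod_cast Nat.card_pos.ne'
  have hfin : ζ + ζ ^ r = (Nat.card ↥(Subgroup.zpowers g) : ℂ)
      * ((Finset.univ.filter fun x : G => x⁻¹ * g * x = g).card : ℂ)⁻¹
      * ind (Subgroup.zpowers g).subtype (homFun lam) g := by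
    rw [hval]
    field_simp
  rw [hfin]
  exact K.mul_mem (K.mul_mem (K.natCast_mem _) (K.inv_mem (K.natCast_mem _))) hmem

end Cfsg.Agent.Lib.H83FVInd
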