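import Mathlib
import Cfsg.Prelude.Def_Characters
import Cfsg.Prelude.Def_Blocks

set_option autoImplicit false

/-! PROJECT 4845: vocabulary. -/

namespace Cfsg.Agent.Lib.H83GCDefs

/-- any two nonlinear irreducible characters of the same degree are Galois conjugate. -/
def GC (P : Type*) [Group P] : Prop :=
  ∀ χ ψ : Cfsg.IrrCharacter P, Cfsg.charDegree (χ : P → ℂ) ≠ 1 →
    Cfsg.charDegree (χ : P → ℂ) = Cfsg.charDegree (ψ : P → ℂ) →
    ∃ k : ℕ, Nat.Coprime k (Nat.card P) ∧ ∀ g : P, (ψ : P → ℂ) g = (χ : P → ℂ) (g ^ k)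

end Cfsg.Agent.Lib.H83GCDefs
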