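import Mathlib
import Cfsg.Prelude.Def_Characters
import Cfsg.Prelude.Def_Blocks
import Cfsg.Agent.Lib.H83GCDefs
import Cfsg.Agent.Lib.Helper82Quot
import Cfsg.Agent.Lib.Helper82Irr
import Cfsg.Agent.Lib.Helper19TwoDeg

set_option autoImplicit false

/-! PROJECT 4845, piece Ker (est 45m).

`gc_ker`: `ψ g = χ (g^k)`.  `χ a = χ 1` implies `χ (a^k) = χ 1` (the kernel is a subgroup: e.g. `χ = ρ.character`, `χ a = χ 1` iff
`ρ a = 1`; look in Lib for a kernel lemma, e.g. grep "ker" in Helper82Quot / Helper5Ker / Helper4Char*), and `ψ 1 = χ 1`.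
`gc_quot`: inflate (`Helper82Quot.inflate N`, `inflate_apply`; `charDegree` of the inflation is the same by `rfl`/`unfold`), `|P/N|` divides `|P|`.
`exists_nonlinear`: `Helper19TwoDeg.comm_of_linear` + `Helper82Irr.irr_charDegree_cast`. -/

namespace Cfsg.Agent.Lib.H83GCKer

open Cfsg Cfsg.Agent.Lib.H83GCDefs

theorem gc_ker {P : Type*} [Group P] [Finite P] (h : GC P) (χ ψ : IrrCharacter P)
    (h1 : charDegree (χ : P → ℂ) ≠ 1) (h2 : charDegree (χ : P → ℂ) = charDegree (ψ : P → ℂ))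
    (a : P) (ha : (χ : P → ℂ) a = (χ : P → ℂ) 1) : (ψ : P → ℂ) a = (ψ : P → ℂ) 1 := by
  obtain ⟨k, -, hk⟩ := h χ ψ h1 h2
  have hχ := Cfsg.Agent.Lib.Helper4Char.IsIrrCharacter.isCharacter χ.2
  have h3 : a ^ k ∈ Cfsg.Agent.Lib.Helper82Quot.charKer hχ :=
    Subgroup.pow_mem _ ((Cfsg.Agent.Lib.Helper82Quot.mem_charKer hχ a).mpr ha) k
  rw [hk a, hk 1, one_pow]
  exact h3

theorem gc_quot {P : Type*} [Group P] [Finite P] (h : GC P) (N : Subgroup P) [N.Normal] :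
    GC (P ⧸ N) := by
  intro χ ψ h1 h2
  obtain ⟨k, hk1, hk2⟩ := h (Cfsg.Agent.Lib.Helper82Quot.inflate N χ)
    (Cfsg.Agent.Lib.Helper82Quot.inflate N ψ) h1 h2
  refine ⟨k, ?_, ?_⟩
  · exact Nat.Coprime.coprime_dvd_right
      ⟨Nat.card N, N.card_eq_card_quotient_mul_card_subgroup⟩ hk1
  · intro g
    obtain ⟨g, rfl⟩ := QuotientGroup.mk_surjective g
    exact hk2 g

theorem exists_nonlinear {Q : Type*} [Group Q] [Finite Q] (h : ∃ x y : Q, x * y ≠ y * x) :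
    ∃ χ : IrrCharacter Q, charDegree (χ : Q → ℂ) ≠ 1 := by
  by_contra hcon
  push Not at hcon
  obtain ⟨x, y, hxy⟩ := h
  apply hxy
  apply Cfsg.Agent.Lib.Helper19TwoDeg.comm_of_linear
  intro χ
  rw [← Cfsg.Agent.Lib.Helper82Irr.irr_charDegree_cast, hcon χ, Nat.cast_one]

end Cfsg.Agent.Lib.H83GCKer
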