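import Mathlib

set_option autoImplicit false

/-! PROJECT 4845, piece Par (pure Mathlib group theory).

`A ≤ Z(P)` of order `p`.  `pow_mem_center`: if `y A` is central in `P/A` then `y^p` is central.
`card_center_quot`: `|Z(P/A)| p = |Z(P)|` or `|Z(P/A)| = |Z(P)|` when `Z(P/A)` is cyclic. -/

namespace Cfsg.Agent.Lib.H83GCPar

theorem pow_mem_center {P : Type*} [Group P] (p : ℕ) (A : Subgroup P) [A.Normal]
    (hAZ : A ≤ Subgroup.center P) (hA : ∀ a ∈ A, a ^ p = 1) (y : P)
    (hy : (QuotientGroup.mk' A y) ∈ Subgroup.center (P ⧸ A)) : y ^ p ∈ Subgroup.center P := by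
  rw [Subgroup.mem_center_iff]
  intro g
  have h1 := Subgroup.mem_center_iff.mp hy (QuotientGroup.mk' A g)
  rw [← map_mul, ← map_mul] at h1
  -- `(y g)⁻¹ (g y) ∈ A`
  have h2 : (y * g)⁻¹ * (g * y) ∈ A := QuotientGroup.eq.mp h1.symm
  set a : P := (y * g)⁻¹ * (g * y) with ha
  have hac : ∀ z : P, z * a = a * z := Subgroup.mem_center_iff.mp (hAZ h2)
  have hgy : g * y * g⁻¹ = y * a := by
    have : g * y = y * g * a := by rw [ha]; group
    rw [this, mul_assoc y g a, hac g, mul_assoc, mul_assoc, mul_inv_cancel, mul_one]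
  have h3 : g * y ^ p * g⁻¹ = y ^ p := by
    have : g * y ^ p * g⁻¹ = (g * y * g⁻¹) ^ p := (conj_pow).symm
    rw [this, hgy, (show Commute y a from hac y).mul_pow, hA a h2, mul_one]
  calc g * y ^ p = g * y ^ p * g⁻¹ * g := by group
    _ = y ^ p * g := by rw [h3]

theorem card_center_quot {P : Type*} [Group P] [Finite P] (p : ℕ) [Fact p.Prime]
    (A : Subgroup P) [A.Normal] (hAZ : A ≤ Subgroup.center P) (hA : Nat.card A = p)
    (H1 : IsCyclic (Subgroup.center (P ⧸ A))) :
    Nat.card (Subgroup.center (P ⧸ A)) * p = Nat.card (Subgroup.center P) ∨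
      Nat.card (Subgroup.center (P ⧸ A)) = Nat.card (Subgroup.center P) := by
  have hp : p.Prime := Fact.out
  have hApow : ∀ a ∈ A, a ^ p = 1 := by
    intro a ha
    have := pow_card_eq_one' (G := A) (x := ⟨a, ha⟩)
    rw [hA] at this
    simpa using congrArg Subtype.val this
  set Y : Subgroup P := (Subgroup.center (P ⧸ A)).comap (QuotientGroup.mk' A) with hY
  have hcardY : Nat.card Y = p * Nat.card (Subgroup.center (P ⧸ A)) := by
    have := QuotientGroup.card_preimage_mk A (Subgroup.center (P ⧸ A) : Set (P ⧸ A))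
    rw [hA] at this
    exact this
  have hZY : Subgroup.center P ≤ Y := by
    intro z hz
    rw [hY, Subgroup.mem_comap, Subgroup.mem_center_iff]
    intro g
    obtain ⟨g, rfl⟩ := QuotientGroup.mk'_surjective A g
    rw [← map_mul, ← map_mul, Subgroup.mem_center_iff.mp hz g]
  obtain ⟨⟨w, hw⟩, hgen⟩ := H1.exists_generator
  obtain ⟨y, rfl⟩ := QuotientGroup.mk'_surjective A w
  have hyp : y ^ p ∈ Subgroup.center P := pow_mem_center p A hAZ hApow y hw
  have hYsup : Y = Subgroup.center P ⊔ Subgroup.zpowers y := by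
    apply le_antisymm
    · intro t ht
      have ht' : QuotientGroup.mk' A t ∈ Subgroup.center (P ⧸ A) := ht
      obtain ⟨j, hj⟩ := Subgroup.mem_zpowers_iff.mp (hgen ⟨_, ht'⟩)
      have hj' : (QuotientGroup.mk' A y) ^ j = QuotientGroup.mk' A t := by
        simpa using congrArg Subtype.val hj
      rw [← map_zpow] at hj'
      have hmem : (y ^ j)⁻¹ * t ∈ A := QuotientGroup.eq.mp hj'
      have ht2 : t = ((y ^ j)⁻¹ * t) * y ^ j := by
        have := Subgroup.mem_center_iff.mp (hAZ hmem) (y ^ j)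
        rw [← this]; group
      rw [ht2]
      exact Subgroup.mul_mem _ ((le_sup_left : Subgroup.center P ≤ _) (hAZ hmem))
        ((le_sup_right : Subgroup.zpowers y ≤ _) (Subgroup.zpow_mem _ (Subgroup.mem_zpowers y) j))
    · apply sup_le hZY
      rw [Subgroup.zpowers_le]
      exact hw
  have hrel : (Subgroup.center P).relIndex Y ∣ p := by
    rw [hYsup, Subgroup.relIndex_sup_left, Subgroup.relIndex, Subgroup.index]
    haveI : IsCyclic (↥(Subgroup.zpowers y) ⧸ (Subgroup.center P).subgroupOf (Subgroup.zpowers y)) :=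
      isCyclic_of_surjective (QuotientGroup.mk' _) (QuotientGroup.mk'_surjective _)
    rw [← IsCyclic.exponent_eq_card]
    apply Monoid.exponent_dvd_of_forall_pow_eq_one
    intro g
    obtain ⟨⟨g, hg⟩, rfl⟩ := QuotientGroup.mk'_surjective _ g
    rw [← map_pow]
    apply (QuotientGroup.eq_one_iff _).mpr
    rw [Subgroup.mem_subgroupOf]
    obtain ⟨j, rfl⟩ := Subgroup.mem_zpowers_iff.mp hg
    simp only [Subgroup.coe_pow]
    rw [← zpow_natCast, ← zpow_mul, mul_comm, zpow_mul, zpow_natCast]
    exact Subgroup.zpow_mem _ hyp j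
  have hmul : Nat.card (Subgroup.center P) * (Subgroup.center P).relIndex Y = Nat.card Y := by
    have := Subgroup.relIndex_mul_relIndex ⊥ (Subgroup.center P) Y bot_le hZY
    simpa [Subgroup.relIndex_bot_left] using this
  rcases (Nat.dvd_prime hp).mp hrel with h | h
  · left
    rw [h, mul_one, hcardY] at hmul
    rw [hmul, mul_comm]
  · right
    rw [h, hcardY, mul_comm] at hmul
    exact (Nat.eq_of_mul_eq_mul_left hp.pos hmul).symm

end Cfsg.Agent.Lib.H83GCPar
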