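import Mathlib
import Cfsg.Prelude.Def_Characters
import Cfsg.Prelude.Def_Blocks
import Cfsg.Agent.Lib.Helper79Central
import Cfsg.Agent.Lib.Helper83Extra
import Cfsg.Agent.Lib.Helper82Irr
import Cfsg.Agent.Lib.Helper4Char4
import Cfsg.Agent.Lib.Helper67PGroup

set_option autoImplicit false

/-! PROJECT 4845, piece Van (est 60m).

`commutator_le_center`: a normal subgroup of order `p` of a `p`-group is central (conjugation orbits on it have
`p`-power size, `1` is fixed; or: `N ⊓ center ≠ ⊥` for `N ≠ ⊥` normal -- look for it in Mathlib / Lib).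

`vanish_off_center`: `x ∉ Z(Q)`: pick `y` with `c := y x y⁻¹ x⁻¹ ≠ 1`; `c ∈ Q'` is central and generates `Q'` (prime order).
`χ x = χ (y x y⁻¹) = χ (c x) = (χ c / χ 1) χ x` (`Helper79Central.irr_central_mul`).  If `χ x ≠ 0` then `χ c = χ 1`, then
`χ (c^i) = χ 1` for all `i` (again `irr_central_mul`), so `Q'` is in the kernel and `χ 1 = 1` (`Helper83Extra.linear_of_commutator`);
`Helper82Irr.irr_charDegree_cast` converts to `charDegree`.  (Compare `Helper83Extra.typeB_vanish`.)

`sq_mul_card_center`: `|Q| = ∑ |χ x|² = ∑_{z ∈ Z} |χ z|² = |Z| χ(1)²` (first orthogonality `classInner_irr_self`;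
`|χ z| = χ 1` for central `z`: `χ z / χ 1` is a value of the hom `Helper79Central.centralHom`, a root of unity). -/

namespace Cfsg.Agent.Lib.H83GCVan

open Cfsg
open Cfsg.Agent.Lib.Helper83Char Cfsg.Agent.Lib.Helper83Extra
open scoped ComplexConjugate

theorem commutator_le_center {Q : Type*} [Group Q] [Finite Q] (p : ℕ) [Fact p.Prime]
    (hQ : IsPGroup p Q) (hc : Nat.card (commutator Q) = p) :
    commutator Q ≤ Subgroup.center Q := by
  have hp : p.Prime := Fact.out
  have hne : commutator Q ≠ ⊥ := by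
    intro h0
    rw [h0, Subgroup.card_bot] at hc
    exact hp.one_lt.ne hc
  have h1 := Cfsg.Agent.Lib.Helper67PGroup.normal_inf_center_ne_bot hQ (commutator Q) hne
  have h2 : Nat.card (commutator Q ⊓ Subgroup.center Q : Subgroup Q) ∣ p := by
    rw [← hc]; exact Subgroup.card_dvd_of_le inf_le_left
  rcases (Nat.dvd_prime hp).mp h2 with h3 | h3
  · exact absurd (Subgroup.card_eq_one.mp h3) h1
  · have h4 : commutator Q ⊓ Subgroup.center Q = commutator Q :=
      Subgroup.eq_of_le_of_card_ge inf_le_left (by rw [h3, hc])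
    exact inf_eq_left.mp h4

theorem vanish_off_center {Q : Type*} [Group Q] [Finite Q] (p : ℕ) [Fact p.Prime]
    (hc : Nat.card (commutator Q) = p) (hcz : commutator Q ≤ Subgroup.center Q)
    (χ : IrrCharacter Q) (hχ : charDegree (χ : Q → ℂ) ≠ 1) (x : Q)
    (hx : x ∉ Subgroup.center Q) : (χ : Q → ℂ) x = 0 := by
  by_contra hne
  rw [Subgroup.mem_center_iff] at hx
  push Not at hx
  obtain ⟨y, hy⟩ := hx
  set c₀ : Q := y * x * y⁻¹ * x⁻¹ with hc₀
  have hc₀C : c₀ ∈ commutator Q := by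
    rw [commutator_def]
    exact Subgroup.commutator_mem_commutator (Subgroup.mem_top y) (Subgroup.mem_top x)
  have hc₀Z : c₀ ∈ Subgroup.center Q := hcz hc₀C
  have hc₀1 : c₀ ≠ 1 := by
    intro h1
    apply hy
    have : y * x * y⁻¹ = x := by
      rw [hc₀, mul_inv_eq_one] at h1
      exact h1
    calc y * x = (y * x * y⁻¹) * y := by group
      _ = x * y := by rw [this]
  obtain ⟨c, hcc⟩ := central_scalar χ.2 c₀ hc₀Z
  have h1 : (χ : Q → ℂ) (c₀ * x) = (χ : Q → ℂ) x := by
    have : c₀ * x = y * x * y⁻¹ := by rw [hc₀]; group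
    rw [this, irr_class χ.2]
  have hc1 : c = 1 := by
    rw [hcc] at h1
    exact mul_right_cancel₀ hne (h1.trans (one_mul _).symm)
  have h2 : ∀ g : Q, (χ : Q → ℂ) (c₀ * g) = (χ : Q → ℂ) g := fun g => by rw [hcc, hc1, one_mul]
  have h3 : ∀ (k : ℕ) (g : Q), (χ : Q → ℂ) (c₀ ^ k * g) = (χ : Q → ℂ) g := by
    intro k
    induction k with
    | zero => intro g; simp
    | succ k ih => intro g; rw [pow_succ, mul_assoc, ih, h2]
  apply hχ
  have h4 : (χ : Q → ℂ) 1 = 1 := by
    apply linear_of_commutator χ.2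
    intro m hm
    have htop := zpowers_eq_top_of_prime_card hc
      (g := (⟨c₀, hc₀C⟩ : commutator Q)) (fun h => hc₀1 (congrArg Subtype.val h))
    have hz : (⟨m, hm⟩ : commutator Q) ∈ Subgroup.zpowers (⟨c₀, hc₀C⟩ : commutator Q) := by
      rw [htop]; trivial
    rw [← mem_powers_iff_mem_zpowers] at hz
    obtain ⟨k, hk⟩ := hz
    have hk' : c₀ ^ k = m := congrArg Subtype.val hk
    have := h3 k 1
    rwa [mul_one, hk'] at this
  have h5 := Cfsg.Agent.Lib.Helper82Irr.irr_charDegree_cast χ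
  rw [h4] at h5
  exact_mod_cast h5

theorem sq_mul_card_center {Q : Type*} [Group Q] [Finite Q] (p : ℕ) [Fact p.Prime]
    (hc : Nat.card (commutator Q) = p) (hcz : commutator Q ≤ Subgroup.center Q)
    (χ : IrrCharacter Q) (hχ : charDegree (χ : Q → ℂ) ≠ 1) :
    charDegree (χ : Q → ℂ) ^ 2 * Nat.card (Subgroup.center Q) = Nat.card Q := by
  classical
  have : Fintype Q := Fintype.ofFinite Q
  have hv := vanish_off_center p hc hcz χ hχ
  have hG : (Nat.card Q : ℂ) ≠ 0 := by exact_mod_cast Nat.card_pos.ne'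
  have h1 := Helper83Char.classInner_irr_self χ.2
  rw [Cfsg.classInner] at h1
  have h2 : ∑ g : Q, (χ : Q → ℂ) g * conj ((χ : Q → ℂ) g) = (Nat.card Q : ℂ) := by
    field_simp at h1
    exact h1
  have h3 : ∑ g : Q, (χ : Q → ℂ) g * conj ((χ : Q → ℂ) g)
      = ∑ z : Subgroup.center Q, (χ : Q → ℂ) z * conj ((χ : Q → ℂ) z) := by
    rw [sum_subgroup (Subgroup.center Q) (fun g => (χ : Q → ℂ) g * conj ((χ : Q → ℂ) g))]
    refine Finset.sum_congr rfl fun g _ => ?_
    split_ifs with hg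
    · rfl
    · rw [hv g hg, zero_mul]
  have h4 : ∀ z : Subgroup.center Q, (χ : Q → ℂ) z * conj ((χ : Q → ℂ) z)
      = (χ : Q → ℂ) 1 * (χ : Q → ℂ) 1 := by
    intro z
    obtain ⟨c, hcc⟩ := central_scalar χ.2 z z.2
    rw [← irr_inv χ.2]
    have e1 := hcc 1
    have e2 := hcc (z : Q)⁻¹
    rw [mul_one] at e1
    rw [mul_inv_cancel] at e2
    rw [e1, mul_right_comm, ← e2]
  simp_rw [h4] at h3
  rw [Finset.sum_const, Finset.card_univ, nsmul_eq_mul, ← Nat.card_eq_fintype_card, h2,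
    ← Cfsg.Agent.Lib.Helper82Irr.irr_charDegree_cast χ] at h3
  have h5 : Nat.card Q = Nat.card (Subgroup.center Q) *
      (charDegree (χ : Q → ℂ) * charDegree (χ : Q → ℂ)) := by exact_mod_cast h3
  rw [h5, sq, mul_comm]

end Cfsg.Agent.Lib.H83GCVan
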