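import Mathlib
import Cfsg.Prelude.Def_Characters
import Cfsg.Prelude.Def_Blocks
import Cfsg.Agent.Lib.H83GCDefs
import Cfsg.Agent.Lib.H83GCVan
import Cfsg.Agent.Lib.H83GCKer
import Cfsg.Agent.Lib.H83GCPar
import Cfsg.Agent.Lib.Helper83Extra
import Cfsg.Agent.Lib.Helper82Cod

set_option autoImplicit false

/-! PROJECT 4845, piece Alpha (est 75m).  Uses Van, Ker, Par as black boxes.

`P'` central, of order `p^2` and exponent `p`; GC; `IH` = the theorem for all proper quotients.  CLAIM: contradiction.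
Pick `a ∈ P'`, `a ≠ 1`, `A = zpowers a` (order `p`); pick `t ∈ P'`, `t ∉ A` (orders), `D = zpowers t` (order `p`).  Both are central, hence normal
(`Subgroup.normal_of_le_center`-type lemma; provide the instance with `haveI`).  `P/A`, `P/D` are nonabelian (else `P' ≤ A`, resp. `D`: `QuotientGroup`/`Abelianization` lemma
`Subgroup.Normal.commutator_le_of_...`, or directly on commutators), so `IH` applies to both.
Take nonlinear `θA`, `θD` (`exists_nonlinear`), degrees `fA`, `fD`.  `sq_mul_card_center` (with `commutator_le_center` for the `p`-groups `P/A`, `P/D`):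
`fA^2 |Z(P/A)| = |P/A|`, and `|P/A| * p = |P|`.  By `card_center_quot`, `fA^2 |Z(P)| ∈ {|P|, |P|/p ...}`: precisely `fA^2 * |Z(P)| = |P|` or `fA^2 * |Z(P)| * p = |P|`; same for `D`.
If the alternatives differ we get `fA^2 = p * fD^2` (or conversely), impossible (`p`-adic valuation / `Nat.Prime` is not a square ratio: use `Nat.factorization` or `padicValNat` parity).  So `fA = fD`.
The inflations `χA, χD` (`Helper82Quot.inflate`) are nonlinear of equal degree; `χA a = χA 1` (`inflate_ker`), so `χD a = χD 1` (`gc_ker`), and `χD t = χD 1`.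
Hence `θD` is trivial on `mk a`; every `c ∈ P'` is `a^i t^j` (orders: `⟨a⟩⟨t⟩` has `p^2` elements) so `θD` is trivial on `(P/D)'`... simplest: `χD` is trivial on `P'` (kernel is a subgroup, see `gc_ker`'s kernel lemma),
so `χD 1 = 1` (`Helper83Extra.linear_of_commutator`): contradiction. -/

namespace Cfsg.Agent.Lib.H83GCAlpha

open Cfsg Cfsg.Agent.Lib.H83GCDefs

universe u

theorem alpha {P : Type u} [Group P] [Finite P] (p : ℕ) [Fact p.Prime]
    (hP : IsPGroup p P) (h : GC P)
    (IH : ∀ (D : Subgroup P) [D.Normal], D ≠ ⊥ → (∃ x y : P ⧸ D, x * y ≠ y * x) →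
      IsCyclic (Subgroup.center (P ⧸ D)) ∧ Nat.card (commutator (P ⧸ D)) = p)
    (hcl : commutator P ≤ Subgroup.center P) (hexp : ∀ c ∈ commutator P, c ^ p = 1)
    (hc2 : Nat.card (commutator P) = p ^ 2) : False := by
  have hp : p.Prime := Fact.out
  have hord : ∀ t ∈ commutator P, t ≠ 1 → orderOf t = p := by
    intro t ht ht1
    rcases (Nat.dvd_prime hp).1 (orderOf_dvd_of_pow_eq_one (hexp t ht)) with h1 | h1
    · exact absurd (orderOf_eq_one_iff.1 h1) ht1
    · exact h1
  have key : ∀ t ∈ commutator P, t ≠ 1 → ∃ ψ : IrrCharacter P, charDegree (ψ : P → ℂ) ≠ 1 ∧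
      (ψ : P → ℂ) t = (ψ : P → ℂ) 1 ∧
      (charDegree (ψ : P → ℂ) ^ 2 * Nat.card (Subgroup.center P) = Nat.card P ∨
        charDegree (ψ : P → ℂ) ^ 2 * Nat.card (Subgroup.center P) * p = Nat.card P) := by
    intro t ht ht1
    have hDZ : Subgroup.zpowers t ≤ Subgroup.center P := Subgroup.zpowers_le.2 (hcl ht)
    have hnor : (Subgroup.zpowers t).Normal := by
      constructor
      intro n hn g
      rw [Subgroup.mem_center_iff.1 (hDZ hn) g, mul_inv_cancel_right]
      exact hn
    have hDcard : Nat.card (Subgroup.zpowers t) = p := by rw [Nat.card_zpowers, hord t ht ht1]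
    have hDbot : Subgroup.zpowers t ≠ ⊥ := by
      intro h0
      apply ht1
      have := Subgroup.mem_zpowers t
      rw [h0] at this
      exact Subgroup.mem_bot.1 this
    have hnab : ∃ x y : P ⧸ Subgroup.zpowers t, x * y ≠ y * x := by
      by_contra hcon
      push Not at hcon
      have hle : commutator P ≤ Subgroup.zpowers t := by
        rw [commutator_def, Subgroup.commutator_le]
        intro x _ y _
        rw [← QuotientGroup.eq_one_iff]
        exact commutatorElement_eq_one_iff_mul_comm.2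
          (hcon (QuotientGroup.mk' _ x) (QuotientGroup.mk' _ y))
      have h1 := Nat.le_of_dvd Nat.card_pos (Subgroup.card_dvd_of_le hle)
      rw [hc2, hDcard] at h1
      have := hp.two_le
      nlinarith
    obtain ⟨H1, H2⟩ := IH (Subgroup.zpowers t) hDbot hnab
    obtain ⟨θ, hθ⟩ := Cfsg.Agent.Lib.H83GCKer.exists_nonlinear hnab
    have hczq := Cfsg.Agent.Lib.H83GCVan.commutator_le_center p (hP.to_quotient _) H2
    have hsq := Cfsg.Agent.Lib.H83GCVan.sq_mul_card_center p H2 hczq θ hθ
    have hcard := Subgroup.card_eq_card_quotient_mul_card_subgroup (Subgroup.zpowers t)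
    have hinf : charDegree (Cfsg.Agent.Lib.Helper82Quot.inflate (Subgroup.zpowers t) θ : P → ℂ)
        = charDegree (θ : P ⧸ Subgroup.zpowers t → ℂ) := rfl
    refine ⟨Cfsg.Agent.Lib.Helper82Quot.inflate _ θ, by rw [hinf]; exact hθ,
      Cfsg.Agent.Lib.Helper82Quot.inflate_ker _ θ (Subgroup.mem_zpowers t), ?_⟩
    rw [hinf]
    rcases Cfsg.Agent.Lib.H83GCPar.card_center_quot p (Subgroup.zpowers t) hDZ hDcard H1 with h1 | h1
    · left
      rw [← h1, ← mul_assoc, hsq, hcard, hDcard]
    · right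
      rw [← h1, hsq, hcard, hDcard]
  -- two independent elements of `P'`
  obtain ⟨a, haP, ha1⟩ : ∃ a ∈ commutator P, a ≠ 1 := by
    by_contra hcon
    push Not at hcon
    have h0 : commutator P = ⊥ := (Subgroup.eq_bot_iff_forall _).2 hcon
    rw [h0, Subgroup.card_bot] at hc2
    have := hp.two_le
    nlinarith
  obtain ⟨t, htP, hta⟩ : ∃ t ∈ commutator P, t ∉ Subgroup.zpowers a := by
    by_contra hcon
    push Not at hcon
    have h1 := Nat.le_of_dvd Nat.card_pos (Subgroup.card_dvd_of_le (show commutator P ≤ Subgroup.zpowers a from hcon))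
    rw [hc2, Nat.card_zpowers, hord a haP ha1] at h1
    have := hp.two_le
    nlinarith
  have ht1 : t ≠ 1 := by
    rintro rfl
    exact hta (one_mem _)
  obtain ⟨ψa, ha2, ha3, ha4⟩ := key a haP ha1
  obtain ⟨ψt, ht2, ht3, ht4⟩ := key t htP ht1
  -- equal degrees
  obtain ⟨n, hn⟩ := hP.exists_card_eq
  obtain ⟨z, hz⟩ := (hP.to_subgroup (Subgroup.center P)).exists_card_eq
  obtain ⟨i, -, hi⟩ := (Nat.dvd_prime_pow hp).1 (hn ▸ Cfsg.Agent.Lib.Helper82Cod.irr_degree_dvd_card ψa)
  obtain ⟨j, -, hj⟩ := (Nat.dvd_prime_pow hp).1 (hn ▸ Cfsg.Agent.Lib.Helper82Cod.irr_degree_dvd_card ψt)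
  have hinj := Nat.pow_right_injective hp.two_le
  have hA : 2 * i + z = n ∨ 2 * i + z + 1 = n := by
    rw [hi, hz, hn] at ha4
    rcases ha4 with h1 | h1
    · left
      apply hinj
      show p ^ (2 * i + z) = p ^ n
      rw [← h1]; ring
    · right
      apply hinj
      show p ^ (2 * i + z + 1) = p ^ n
      rw [← h1]; ring
  have hT : 2 * j + z = n ∨ 2 * j + z + 1 = n := by
    rw [hj, hz, hn] at ht4
    rcases ht4 with h1 | h1
    · left
      apply hinj
      show p ^ (2 * j + z) = p ^ n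
      rw [← h1]; ring
    · right
      apply hinj
      show p ^ (2 * j + z + 1) = p ^ n
      rw [← h1]; ring
  have hij : i = j := by omega
  have hdeg : charDegree (ψa : P → ℂ) = charDegree (ψt : P → ℂ) := by rw [hi, hj, hij]
  have h5 := Cfsg.Agent.Lib.H83GCKer.gc_ker h ψa ψt ha2 hdeg a ha3
  -- `P'` is in the kernel of `ψt`
  have hψc : IsCharacter P (ψt : P → ℂ) := Cfsg.Agent.Lib.Helper82Irr.irr_isCharacter ψt
  have haK : a ∈ Cfsg.Agent.Lib.Helper82Quot.charKer hψc := h5
  have htK : t ∈ Cfsg.Agent.Lib.Helper82Quot.charKer hψc := ht3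
  have hle : commutator P ≤ Cfsg.Agent.Lib.Helper82Quot.charKer hψc := by
    have hd : Nat.card (commutator P ⊓ Cfsg.Agent.Lib.Helper82Quot.charKer hψc : Subgroup P) ∣ p ^ 2 :=
      hc2 ▸ Subgroup.card_dvd_of_le inf_le_left
    have hza : Subgroup.zpowers a ≤ commutator P ⊓ Cfsg.Agent.Lib.Helper82Quot.charKer hψc :=
      Subgroup.zpowers_le.2 ⟨haP, haK⟩
    obtain ⟨k, hk, hkc⟩ := (Nat.dvd_prime_pow hp).1 hd
    have hle1 : p ≤ Nat.card (commutator P ⊓ Cfsg.Agent.Lib.Helper82Quot.charKer hψc : Subgroup P) := by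
      have := Nat.le_of_dvd Nat.card_pos (Subgroup.card_dvd_of_le hza)
      rwa [Nat.card_zpowers, hord a haP ha1] at this
    have hk' : k = 0 ∨ k = 1 ∨ k = 2 := by omega
    rcases hk' with rfl | rfl | rfl
    · rw [hkc, pow_zero] at hle1
      exact absurd hle1 (by have := hp.two_le; omega)
    · exfalso
      apply hta
      have he := Subgroup.eq_of_le_of_card_ge hza (by rw [hkc, Nat.card_zpowers, hord a haP ha1, pow_one])
      rw [he]
      exact ⟨htP, htK⟩
    · have he := Subgroup.eq_of_le_of_card_ge (inf_le_left : commutator P ⊓ Cfsg.Agent.Lib.Helper82Quot.charKer hψc ≤ commutator P) (by rw [hkc, hc2])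
      rw [← he]
      exact inf_le_right
  apply ht2
  have h1 := Cfsg.Agent.Lib.Helper83Extra.linear_of_commutator ψt.2 (fun m hm => hle hm)
  have h2 := Cfsg.Agent.Lib.Helper82Irr.irr_charDegree_cast ψt
  rw [h1] at h2
  exact_mod_cast h2

end Cfsg.Agent.Lib.H83GCAlpha
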