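import Mathlib
import Cfsg.Prelude.Def_Characters
import Cfsg.Prelude.Def_Blocks
import Cfsg.Agent.Lib.H83GCDefs
import Cfsg.Agent.Lib.H83GCVan
import Cfsg.Agent.Lib.H83GCKer
import Cfsg.Agent.S0184
import Cfsg.Agent.Lib.Helper3PGroup
import Cfsg.Agent.Lib.Helper83Extra

set_option autoImplicit false

/-! PROJECT 4845, piece Base (est 75m).  Uses pieces Van and Ker as black boxes.

`|P'| = p`, GC.  `P` is nonabelian; take a nonlinear `χ` (`exists_nonlinear`).  By `sq_mul_card_center` all nonlinear characters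
have the same degree, so by `gc_ker` they all have the same kernel `K₀ = {g | χ g = χ 1}`.
CLAIM `K₀ = 1`.  Otherwise `K₀` is a nontrivial normal subgroup of the `p`-group `P`, so it contains a central element `b` of order `p`.
Let `a` generate `P'` (order `p`, central by `commutator_le_center`).  `a ∉ K₀` (else `P' ≤ K₀` and `χ` is linear, `Helper83Extra.linear_of_commutator`), so
`a ∉ ⟨b⟩`, hence `a ∉ B' := ⟨a b⟩` (if `a = (ab)^i` then `a^(1-i) = b^i` ...; or: `B'` has order `p`, if `a ∈ B'` then `B' = ⟨a⟩ ∋ ab`, so `b ∈ ⟨a⟩`, so `⟨b⟩ = ⟨a⟩ ∋ a`).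
`B'` is central, hence normal, and `P/B'` is nonabelian (`P' ⊄ B'`); a nonlinear `θ'` of `P/B'` inflates to a nonlinear `ψ` of `P` with `ab ∈ ker ψ = K₀`;
with `b ∈ K₀` this gives `a ∈ K₀`, contradiction.
So `χ` is faithful: the representation affording it is injective, and `Cfsg.Agent.S0184.result` gives `IsCyclic (center P)`. -/

namespace Cfsg.Agent.Lib.H83GCBase

open Cfsg Cfsg.Agent.Lib.H83GCDefs

theorem center_cyclic {P : Type*} [Group P] [Finite P] (p : ℕ) [Fact p.Prime]
    (hP : IsPGroup p P) (h : GC P) (hc : Nat.card (commutator P) = p) :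
    IsCyclic (Subgroup.center P) := by
  have hp : p.Prime := Fact.out
  have hcz := Cfsg.Agent.Lib.H83GCVan.commutator_le_center p hP hc
  have hnab : ∃ x y : P, x * y ≠ y * x := by
    by_contra hcon
    push Not at hcon
    have h0 : commutator P = ⊥ := by
      rw [commutator_def, Subgroup.commutator_eq_bot_iff_le_centralizer]
      intro x _
      rw [Subgroup.mem_centralizer_iff]
      intro y _
      exact hcon y x
    rw [h0, Subgroup.card_bot] at hc
    exact hp.one_lt.ne hc
  obtain ⟨χ, hχ⟩ := Cfsg.Agent.Lib.H83GCKer.exists_nonlinear hnab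
  have hχc : IsCharacter P (χ : P → ℂ) := Cfsg.Agent.Lib.Helper82Irr.irr_isCharacter χ
  have hsame : ∀ ψ : IrrCharacter P, charDegree (ψ : P → ℂ) ≠ 1 →
      charDegree (ψ : P → ℂ) = charDegree (χ : P → ℂ) := by
    intro ψ hψ
    have h1 := Cfsg.Agent.Lib.H83GCVan.sq_mul_card_center p hc hcz χ hχ
    have h2 := Cfsg.Agent.Lib.H83GCVan.sq_mul_card_center p hc hcz ψ hψ
    have h3 : charDegree (ψ : P → ℂ) ^ 2 = charDegree (χ : P → ℂ) ^ 2 :=
      Nat.eq_of_mul_eq_mul_right Nat.card_pos (h2.trans h1.symm)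
    exact Nat.pow_left_injective (by norm_num : 2 ≠ 0) h3
  -- a nontrivial element of `P'` generates it
  have hF : ∀ x ∈ commutator P, x ≠ 1 → ∀ H : Subgroup P, x ∈ H → commutator P ≤ H := by
    intro x hx hx1 H hxH
    have hxp : x ^ p = 1 := by
      have := pow_card_eq_one' (G := commutator P) (x := ⟨x, hx⟩)
      rw [hc] at this
      exact congrArg Subtype.val this
    have ho : orderOf x = p := by
      rcases (Nat.dvd_prime hp).1 (orderOf_dvd_of_pow_eq_one hxp) with h1 | h1
      · exact absurd (orderOf_eq_one_iff.1 h1) hx1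
      · exact h1
    have he : Subgroup.zpowers x = commutator P :=
      Subgroup.eq_of_le_of_card_ge (Subgroup.zpowers_le.2 hx) (by rw [Nat.card_zpowers, ho, hc])
    rw [← he]
    exact Subgroup.zpowers_le.2 hxH
  have hnotK : ∀ x ∈ commutator P, x ≠ 1 → x ∉ Cfsg.Agent.Lib.Helper82Quot.charKer hχc := by
    intro x hx hx1 hxK
    apply hχ
    have h1 := Cfsg.Agent.Lib.Helper83Extra.linear_of_commutator χ.2 (fun m hm => hF x hx hx1 _ hxK hm)
    have h2 := Cfsg.Agent.Lib.Helper82Irr.irr_charDegree_cast χ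
    rw [h1] at h2
    exact_mod_cast h2
  have hK : Cfsg.Agent.Lib.Helper82Quot.charKer hχc = ⊥ := by
    by_contra hK
    obtain ⟨b, hbK, hbZ, hb1, hbp⟩ := Cfsg.Agent.Lib.Helper3PGroup.exists_central_order_p hP _ hK
    obtain ⟨a, haP, ha1⟩ : ∃ a ∈ commutator P, a ≠ 1 := by
      by_contra hcon
      push Not at hcon
      have h0 : commutator P = ⊥ := (Subgroup.eq_bot_iff_forall _).2 hcon
      rw [h0, Subgroup.card_bot] at hc
      exact hp.one_lt.ne hc
    have haZ := hcz haP
    have hap : a ^ p = 1 := by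
      have := pow_card_eq_one' (G := commutator P) (x := ⟨a, haP⟩)
      rw [hc] at this
      exact congrArg Subtype.val this
    have habZ : Subgroup.zpowers (a * b) ≤ Subgroup.center P :=
      Subgroup.zpowers_le.2 (mul_mem haZ hbZ)
    have hnor : (Subgroup.zpowers (a * b)).Normal := by
      constructor
      intro n hn g
      rw [Subgroup.mem_center_iff.1 (habZ hn) g, mul_inv_cancel_right]
      exact hn
    have haB : a ∉ Subgroup.zpowers (a * b) := by
      intro haB
      have h1 := hF a haP ha1 _ haB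
      have habp : (a * b) ^ p = 1 := by
        rw [(show Commute a b from Subgroup.mem_center_iff.1 hbZ a).mul_pow, hap, hbp, one_mul]
      have h2 : commutator P = Subgroup.zpowers (a * b) :=
        Subgroup.eq_of_le_of_card_ge h1 (by
          rw [Nat.card_zpowers, hc]
          exact Nat.le_of_dvd hp.pos (orderOf_dvd_of_pow_eq_one habp))
      have h3 : a * b ∈ commutator P := by rw [h2]; exact Subgroup.mem_zpowers _
      have h4 : b ∈ commutator P := by
        have := mul_mem (inv_mem haP) h3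
        rwa [inv_mul_cancel_left] at this
      exact hnotK b h4 hb1 hbK
    have hnab' : ∃ x y : P ⧸ Subgroup.zpowers (a * b), x * y ≠ y * x := by
      by_contra hcon
      push Not at hcon
      apply haB
      have hle : commutator P ≤ Subgroup.zpowers (a * b) := by
        rw [commutator_def, Subgroup.commutator_le]
        intro x _ y _
        rw [← QuotientGroup.eq_one_iff]
        exact commutatorElement_eq_one_iff_mul_comm.2
          (hcon (QuotientGroup.mk' _ x) (QuotientGroup.mk' _ y))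
      exact hle haP
    obtain ⟨θ, hθ⟩ := Cfsg.Agent.Lib.H83GCKer.exists_nonlinear hnab'
    have hinf : charDegree (Cfsg.Agent.Lib.Helper82Quot.inflate (Subgroup.zpowers (a * b)) θ : P → ℂ)
        = charDegree (θ : P ⧸ Subgroup.zpowers (a * b) → ℂ) := rfl
    have h5 := Cfsg.Agent.Lib.H83GCKer.gc_ker h
      (Cfsg.Agent.Lib.Helper82Quot.inflate (Subgroup.zpowers (a * b)) θ) χ (by rw [hinf]; exact hθ)
      (hsame _ (by rw [hinf]; exact hθ)) (a * b)
      (Cfsg.Agent.Lib.Helper82Quot.inflate_ker _ θ (Subgroup.mem_zpowers _))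
    have h6 : a * b ∈ Cfsg.Agent.Lib.Helper82Quot.charKer hχc := h5
    have h7 := mul_mem h6 (inv_mem hbK)
    rw [mul_inv_cancel_right] at h7
    exact hnotK a haP ha1 h7
  obtain ⟨n, ρ, hρ, hρχ⟩ := χ.2
  refine (Cfsg.Agent.S0184.result p hP).1 ⟨n, ρ, hρ, ?_⟩
  rw [injective_iff_map_eq_one]
  intro g hg
  have h1 := (Cfsg.Agent.Lib.Helper82Quot.rep_eq_one_iff ρ g).1 hg
  rw [hρχ] at h1
  have h2 : g ∈ Cfsg.Agent.Lib.Helper82Quot.charKer hχc := h1
  rw [hK] at h2
  exact Subgroup.mem_bot.1 h2

end Cfsg.Agent.Lib.H83GCBase
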