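import Mathlib

set_option autoImplicit false

/-! PROJECT 4845, piece Beta (pure Mathlib group theory).

Class 2 (`P' ≤ Z(P)`), `c^p ∈ A` for `c ∈ P'`, `A ≤ Z(P)`, `Z(P/A)` cyclic, `P` a `p`-group.  CLAIM `[x,y]^p = 1`. -/

namespace Cfsg.Agent.Lib.H83GCBeta

open scoped commutatorElement

/-- In a finite cyclic group, divisibility of orders gives membership in the cyclic subgroup. -/
theorem mem_zpowers_of_orderOf_dvd' {C : Type*} [CommGroup C] [Finite C] [IsCyclic C] (u v : C)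
    (h : orderOf u ∣ orderOf v) : u ∈ Subgroup.zpowers v := by
  set H : Subgroup C := Subgroup.zpowers u ⊔ Subgroup.zpowers v with hH
  have hexp : Monoid.exponent H ∣ orderOf v := by
    apply Monoid.exponent_dvd_of_forall_pow_eq_one
    rintro ⟨g, hg⟩
    obtain ⟨a, ha, b, hb, rfl⟩ := Subgroup.mem_sup.mp hg
    apply Subtype.ext
    simp only [Subgroup.coe_pow, Subgroup.coe_one]
    rw [mul_pow]
    have h1 : a ^ orderOf v = 1 :=
      orderOf_dvd_iff_pow_eq_one.mp ((orderOf_dvd_of_mem_zpowers ha).trans h)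
    have h2 : b ^ orderOf v = 1 := orderOf_dvd_iff_pow_eq_one.mp (orderOf_dvd_of_mem_zpowers hb)
    rw [h1, h2, one_mul]
  rw [IsCyclic.exponent_eq_card] at hexp
  have hle : Subgroup.zpowers v ≤ H := le_sup_right
  have heq : Subgroup.zpowers v = H := by
    apply Subgroup.eq_of_le_of_card_ge hle
    rw [Nat.card_zpowers]
    exact Nat.le_of_dvd (orderOf_pos v) hexp
  rw [heq]
  exact (le_sup_left : Subgroup.zpowers u ≤ H) (Subgroup.mem_zpowers u)

theorem mem_zpowers_of_orderOf_dvd {C : Type*} [Group C] [Finite C] [IsCyclic C] (u v : C)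
    (h : orderOf u ∣ orderOf v) : u ∈ Subgroup.zpowers v := by
  letI : CommGroup C := IsCyclic.commGroup
  exact mem_zpowers_of_orderOf_dvd' u v h

theorem mem_zpowers_or {C : Type*} [Group C] [Finite C] [IsCyclic C] (p : ℕ) [Fact p.Prime]
    (hC : IsPGroup p C) (u v : C) : u ∈ Subgroup.zpowers v ∨ v ∈ Subgroup.zpowers u := by
  obtain ⟨a, ha⟩ := IsPGroup.iff_orderOf.mp hC u
  obtain ⟨b, hb⟩ := IsPGroup.iff_orderOf.mp hC v
  rcases le_total a b with hab | hab
  · left
    apply mem_zpowers_of_orderOf_dvd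
    rw [ha, hb]
    exact pow_dvd_pow p hab
  · right
    apply mem_zpowers_of_orderOf_dvd
    rw [ha, hb]
    exact pow_dvd_pow p hab

/-- class 2: `[x^n, g] = [x, g]^n`. -/
theorem comm_pow_left {P : Type*} [Group P] (x g : P) (hc : ⁅x, g⁆ ∈ Subgroup.center P) (n : ℕ) :
    ⁅x ^ n, g⁆ = ⁅x, g⁆ ^ n := by
  have hxg : x * g = ⁅x, g⁆ * (g * x) := by
    simp [commutatorElement_def, mul_assoc]
  have key : ∀ n : ℕ, x ^ n * g = ⁅x, g⁆ ^ n * (g * x ^ n) := by
    intro n
    induction n with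
    | zero => simp
    | succ n ih =>
      have hcn : ∀ z : P, z * ⁅x, g⁆ ^ n = ⁅x, g⁆ ^ n * z := fun z =>
        (Subgroup.mem_center_iff.mp (Subgroup.pow_mem _ hc n) z)
      calc x ^ (n + 1) * g = x * (x ^ n * g) := by rw [pow_succ', mul_assoc]
        _ = x * (⁅x, g⁆ ^ n * (g * x ^ n)) := by rw [ih]
        _ = ⁅x, g⁆ ^ n * ((x * g) * x ^ n) := by
            rw [← mul_assoc, hcn x, mul_assoc, mul_assoc]
        _ = ⁅x, g⁆ ^ n * ((⁅x, g⁆ * (g * x)) * x ^ n) := by rw [← hxg]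
        _ = ⁅x, g⁆ ^ (n + 1) * (g * x ^ (n + 1)) := by
            rw [pow_succ, pow_succ']
            simp only [mul_assoc]
  have h := key n
  calc ⁅x ^ n, g⁆ = (x ^ n * g) * (x ^ n)⁻¹ * g⁻¹ := by rw [commutatorElement_def]
    _ = ⁅x, g⁆ ^ n := by rw [h]; simp [mul_assoc]

/-- class 2: `[x, g^n] = [x, g]^n`. -/
theorem comm_pow_right {P : Type*} [Group P] (x g : P) (hc : ⁅x, g⁆ ∈ Subgroup.center P) (n : ℕ) :
    ⁅x, g ^ n⁆ = ⁅x, g⁆ ^ n := by
  have hc' : ⁅g, x⁆ ∈ Subgroup.center P := by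
    rw [← commutatorElement_inv]
    exact Subgroup.inv_mem _ hc
  rw [← commutatorElement_inv (g ^ n) x, comm_pow_left g x hc' n, ← inv_pow, commutatorElement_inv]

theorem comm_pow_eq_one {P : Type*} [Group P] [Finite P] (p : ℕ) [Fact p.Prime]
    (hP : IsPGroup p P) (A : Subgroup P) [A.Normal] (hAZ : A ≤ Subgroup.center P)
    (H1 : IsCyclic (Subgroup.center (P ⧸ A))) (hcl : commutator P ≤ Subgroup.center P)
    (hp2 : ∀ c ∈ commutator P, c ^ p ∈ A) (x y : P) : ⁅x, y⁆ ^ p = 1 := by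
  have hcm : ∀ a b : P, ⁅a, b⁆ ∈ commutator P := fun a b =>
    Subgroup.commutator_mem_commutator (Subgroup.mem_top a) (Subgroup.mem_top b)
  have hcc : ∀ a b : P, ⁅a, b⁆ ∈ Subgroup.center P := fun a b => hcl (hcm a b)
  -- `mk (x^p)` is central in the quotient
  have hcen : ∀ x : P, (QuotientGroup.mk' A (x ^ p)) ∈ Subgroup.center (P ⧸ A) := by
    intro x
    rw [Subgroup.mem_center_iff]
    intro g
    obtain ⟨g, rfl⟩ := QuotientGroup.mk'_surjective A g
    have h1 : ⁅x ^ p, g⁆ ∈ A := by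
      rw [comm_pow_left x g (hcc x g) p]
      exact hp2 _ (hcm x g)
    have h2 : QuotientGroup.mk' A ⁅x ^ p, g⁆ = 1 := (QuotientGroup.eq_one_iff _).mpr h1
    rw [map_commutatorElement, commutatorElement_eq_one_iff_mul_comm] at h2
    exact h2.symm
  have hPC : IsPGroup p (Subgroup.center (P ⧸ A)) :=
    (hP.to_quotient A).to_subgroup _
  -- the key computation
  have main : ∀ x y : P, (⟨_, hcen y⟩ : Subgroup.center (P ⧸ A)) ∈
      Subgroup.zpowers (⟨_, hcen x⟩ : Subgroup.center (P ⧸ A)) → Commute x (y ^ p) := by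
    intro x y hmem
    obtain ⟨j, hj⟩ := Subgroup.mem_zpowers_iff.mp hmem
    have hj' : (QuotientGroup.mk' A (x ^ p)) ^ j = QuotientGroup.mk' A (y ^ p) := by
      have := congrArg Subtype.val hj
      simpa using this
    rw [← map_zpow] at hj'
    have hmemA : ((x ^ p) ^ j)⁻¹ * y ^ p ∈ A := by
      have := QuotientGroup.eq.mp hj'
      exact this
    have hy : y ^ p = (x ^ p) ^ j * (((x ^ p) ^ j)⁻¹ * y ^ p) := by group
    rw [hy]
    apply Commute.mul_right
    · exact ((Commute.refl x).pow_right p).zpow_right j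
    · exact (Subgroup.mem_center_iff.mp (hAZ hmemA) x)
  rcases mem_zpowers_or p hPC (⟨_, hcen y⟩ : Subgroup.center (P ⧸ A)) ⟨_, hcen x⟩ with h | h
  · rw [← comm_pow_right x y (hcc x y) p]
    exact commutatorElement_eq_one_iff_commute.mpr (main x y h)
  · rw [← comm_pow_left x y (hcc x y) p]
    exact commutatorElement_eq_one_iff_commute.mpr (main y x h).symm

end Cfsg.Agent.Lib.H83GCBeta
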