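import Mathlib
import Cfsg.Prelude.Def_Characters
import Cfsg.Prelude.Def_Blocks
import Cfsg.Agent.Lib.H83GCDefs
import Cfsg.Agent.Lib.H83GCVan
import Cfsg.Agent.Lib.H83GCBeta
import Cfsg.Agent.Lib.Helper79Central

set_option autoImplicit false

/-! PROJECT 4845, piece Conv.  Uses piece Van as a black box (and the cyclic `p`-group lemma of Beta).

`Z = Z(P)` cyclic, `|P'| = p`: nonlinear irreducible characters of the same degree are Galois conjugate. -/

namespace Cfsg.Agent.Lib.H83GCConv

open Cfsg Cfsg.Agent.Lib.H83GCDefs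

/-- the central character of a nonlinear irreducible character is faithful. -/
theorem centralHom_injective {P : Type*} [Group P] [Finite P] (p : ℕ) [Fact p.Prime]
    (hP : IsPGroup p P) (hZ : IsCyclic (Subgroup.center P))
    (hc : Nat.card (commutator P) = p) (hcz : commutator P ≤ Subgroup.center P)
    (χ : IrrCharacter P) (hχ : charDegree (χ : P → ℂ) ≠ 1) :
    Function.Injective (Helper79Central.centralHom χ.2 (Subgroup.center P) le_rfl) := by
  rw [injective_iff_map_eq_one]
  intro z hz
  by_contra hz1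
  apply hχ
  have h1 : (χ : P → ℂ) 1 ≠ 0 := Helper82Schur.irr_one_ne_zero χ
  have hlin : (χ : P → ℂ) 1 = 1 := by
    apply Helper83Extra.linear_of_commutator χ.2
    intro c hcm
    have hcz' : c ∈ Subgroup.center P := hcz hcm
    have hmem : (⟨c, hcz'⟩ : Subgroup.center P) ∈ Subgroup.zpowers z := by
      rcases H83GCBeta.mem_zpowers_or p (hP.to_subgroup _) (⟨c, hcz'⟩ : Subgroup.center P) z with
        h | h
      · exact h
      · obtain ⟨j, hj⟩ := Subgroup.mem_zpowers_iff.mp h
        have hzc : (z : P) = c ^ j := by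
          have := congrArg Subtype.val hj
          simpa using this.symm
        have hzm : (z : P) ∈ commutator P := by
          rw [hzc]; exact Subgroup.zpow_mem _ hcm j
        have hne : (⟨(z : P), hzm⟩ : commutator P) ≠ 1 := by
          intro h0
          apply hz1
          apply Subtype.ext
          simpa using congrArg Subtype.val h0
        have := mem_zpowers_of_prime_card hc hne (g' := ⟨c, hcm⟩)
        obtain ⟨i, hi⟩ := Subgroup.mem_zpowers_iff.mp this
        refine Subgroup.mem_zpowers_iff.mpr ⟨i, ?_⟩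
        apply Subtype.ext
        have := congrArg Subtype.val hi
        simpa using this
    obtain ⟨i, hi⟩ := Subgroup.mem_zpowers_iff.mp hmem
    have h2 : Helper79Central.centralHom χ.2 (Subgroup.center P) le_rfl ⟨c, hcz'⟩ = 1 := by
      rw [← hi, map_zpow, hz, one_zpow]
    have h3 := Helper79Central.centralHom_apply χ.2 (Subgroup.center P) le_rfl ⟨c, hcz'⟩
    rw [h2] at h3
    simp only [Units.val_one] at h3
    field_simp at h3
    exact h3.symm
  have := Helper82Irr.irr_charDegree_cast χ
  rw [hlin] at this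
  exact_mod_cast this

theorem gc_of_cyclic {P : Type*} [Group P] [Finite P] (p : ℕ) [Fact p.Prime]
    (hP : IsPGroup p P) (hZ : IsCyclic (Subgroup.center P))
    (hc : Nat.card (commutator P) = p) : GC P := by
  have hp : p.Prime := Fact.out
  have hcz := H83GCVan.commutator_le_center p hP hc
  intro χ ψ hχ hdeg
  have hψ : charDegree (ψ : P → ℂ) ≠ 1 := hdeg ▸ hχ
  have hχ1 : (χ : P → ℂ) 1 ≠ 0 := Helper82Schur.irr_one_ne_zero χ
  have hψ1 : (ψ : P → ℂ) 1 ≠ 0 := Helper82Schur.irr_one_ne_zero ψ
  have h11 : (ψ : P → ℂ) 1 = (χ : P → ℂ) 1 := by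
    rw [← Helper82Irr.irr_charDegree_cast, ← Helper82Irr.irr_charDegree_cast, hdeg]
  set lχ := Helper79Central.centralHom χ.2 (Subgroup.center P) le_rfl with hlχ
  set lψ := Helper79Central.centralHom ψ.2 (Subgroup.center P) le_rfl with hlψ
  have iχ : Function.Injective lχ := centralHom_injective p hP hZ hc hcz χ hχ
  have iψ : Function.Injective lψ := centralHom_injective p hP hZ hc hcz ψ hψ
  obtain ⟨z₀, hgen⟩ := hZ.exists_generator
  set n := orderOf z₀ with hn
  have hnpos : 0 < n := orderOf_pos z₀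
  haveI : NeZero n := ⟨hnpos.ne'⟩
  have hncard : n = Nat.card (Subgroup.center P) := orderOf_eq_card_of_forall_mem_zpowers hgen
  have pχ : IsPrimitiveRoot (lχ z₀) n := by
    have := IsPrimitiveRoot.orderOf (lχ z₀)
    rwa [orderOf_injective lχ iχ] at this
  have pψ : IsPrimitiveRoot (lψ z₀) n := by
    have := IsPrimitiveRoot.orderOf (lψ z₀)
    rwa [orderOf_injective lψ iψ] at this
  obtain ⟨k, -, hk, hkeq⟩ := (pχ.isPrimitiveRoot_iff').mp pψ
  have hpn : p ∣ n := by
    rw [hncard, ← hc]
    exact Subgroup.card_dvd_of_le hcz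
  have hkp : Nat.Coprime k p := Nat.Coprime.coprime_dvd_right hpn hk
  obtain ⟨m, hm⟩ := IsPGroup.iff_card.mp hP
  have hkP : Nat.Coprime k (Nat.card P) := by
    rw [hm]; exact Nat.Coprime.pow_right m hkp
  refine ⟨k, hkP, ?_⟩
  intro g
  by_cases hg : g ∈ Subgroup.center P
  · obtain ⟨j, hj⟩ := Subgroup.mem_zpowers_iff.mp (hgen ⟨g, hg⟩)
    have e1 : lψ ⟨g, hg⟩ = lχ (⟨g, hg⟩ ^ k) := by
      rw [← hj, map_zpow, ← hkeq, map_pow, map_zpow, ← zpow_natCast, ← zpow_natCast, ← zpow_mul,
        ← zpow_mul, mul_comm]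
    have e2 := Helper79Central.centralHom_apply ψ.2 (Subgroup.center P) le_rfl ⟨g, hg⟩
    have e3 := Helper79Central.centralHom_apply χ.2 (Subgroup.center P) le_rfl (⟨g, hg⟩ ^ k)
    rw [← hlψ, e1] at e2
    rw [← hlχ, e2] at e3
    simp only [Subgroup.coe_pow] at e3
    rw [h11] at e3
    field_simp at e3
    exact e3
  · have hgk : g ^ k ∉ Subgroup.center P := by
      intro h
      apply hg
      have hco : Nat.Coprime k (orderOf g) :=
        Nat.Coprime.coprime_dvd_right (orderOf_dvd_natCard g) hkP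
      obtain ⟨m, hm⟩ := exists_pow_eq_self_of_coprime hco
      rw [← hm]
      exact Subgroup.pow_mem _ h m
    rw [H83GCVan.vanish_off_center p hc hcz ψ hψ g hg,
      H83GCVan.vanish_off_center p hc hcz χ hχ (g ^ k) hgk]

end Cfsg.Agent.Lib.H83GCConv
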