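import Mathlib
import Cfsg.Agent.Lib.H83GCPar
import Cfsg.Agent.Lib.H83GCVan

set_option autoImplicit false

/-! PROJECT 4845, piece G1 (group theory, est 60m).  Uses `H83GCPar.pow_mem_center`, `H83GCVan.commutator_le_center` as black boxes.

`A ≤ Z(P)`, `|A| = p`, `Z(P/A)` cyclic, `|(P/A)'| = p`, `P' ⊄ Z(P)`.  CLAIM `|Z(P/A)| = p`.
`(P/A)' ≤ Z(P/A)` (`commutator_le_center` for the `p`-group `P/A`), so `p ∣ |Z(P/A)| = p^e`, `e ≥ 1`.  Let `w = mk y` generate `Z(P/A)`.
Suppose `e ≥ 2`.  The cyclic group `Z(P/A)` has exactly one subgroup of order `p`, and `zpowers (w^(p^(e-1)))` is one; so `(P/A)' = zpowers (w^(p^(e-1))) ≤ zpowers (w^p)`.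
For `c ∈ P'`: `mk c ∈ (P/A)'` (image of a commutator subgroup: `Subgroup.map_commutator`/`map_commutatorElement`), so `mk c = mk (y^p)^i`, `c = (y^p)^i a` with `a ∈ A`;
`y^p ∈ Z(P)` by `pow_mem_center`, so `c ∈ Z(P)`: contradiction with `hncl`. -/

namespace Cfsg.Agent.Lib.H83GCG1

theorem card_center_quot_eq {P : Type*} [Group P] [Finite P] (p : ℕ) [Fact p.Prime]
    (hP : IsPGroup p P) (A : Subgroup P) [A.Normal] (hAZ : A ≤ Subgroup.center P)
    (hA : Nat.card A = p) (H1 : IsCyclic (Subgroup.center (P ⧸ A)))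
    (H2 : Nat.card (commutator (P ⧸ A)) = p) (hncl : ¬ commutator P ≤ Subgroup.center P) :
    Nat.card (Subgroup.center (P ⧸ A)) = p := by
  have hp : p.Prime := Fact.out
  have hPq := hP.to_quotient A
  have hcz := Cfsg.Agent.Lib.H83GCVan.commutator_le_center p hPq H2
  obtain ⟨e, he⟩ := (hPq.to_subgroup (Subgroup.center (P ⧸ A))).exists_card_eq
  have hdvd : p ∣ Nat.card (Subgroup.center (P ⧸ A)) := H2 ▸ Subgroup.card_dvd_of_le hcz
  by_contra hne
  have he2 : 2 ≤ e := by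
    rcases e with _ | _ | e
    · rw [he, pow_zero] at hdvd
      exact absurd (Nat.le_of_dvd one_pos hdvd) (by have := hp.two_le; omega)
    · exact absurd (by rw [he]; simp) hne
    · omega
  obtain ⟨w, hw⟩ := H1.exists_generator
  have how : orderOf w = p ^ e := by rw [orderOf_eq_card_of_forall_mem_zpowers hw, he]
  apply hncl
  intro c hc
  have hmap : (commutator P).map (QuotientGroup.mk' A) ≤ commutator (P ⧸ A) := by
    rw [commutator_def, commutator_def, Subgroup.map_commutator]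
    exact Subgroup.commutator_mono le_top le_top
  have h1 : QuotientGroup.mk' A c ∈ commutator (P ⧸ A) := hmap (Subgroup.mem_map_of_mem _ hc)
  have h2 : (QuotientGroup.mk' A c) ^ p = 1 := by
    have := pow_card_eq_one' (G := commutator (P ⧸ A)) (x := ⟨_, h1⟩)
    rw [H2] at this
    exact congrArg Subtype.val this
  obtain ⟨k, hk⟩ := Subgroup.mem_zpowers_iff.1 (hw ⟨_, hcz h1⟩)
  have h3 : w ^ (k * p) = 1 := by
    rw [zpow_mul, hk, zpow_natCast]
    apply Subtype.ext
    exact h2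
  have h4 : ((p ^ e : ℕ) : ℤ) ∣ k * p := by
    rw [← how]; exact orderOf_dvd_iff_zpow_eq_one.2 h3
  obtain ⟨e', rfl⟩ : ∃ e', e = e' + 2 := ⟨e - 2, by omega⟩
  have h5 : (p : ℤ) ∣ k := by
    have h6 : ((p : ℤ) ^ (e' + 1)) * p ∣ k * p := by
      push_cast at h4
      rw [← pow_succ]; exact h4
    have h7 := (mul_dvd_mul_iff_right (by exact_mod_cast hp.ne_zero)).1 h6
    exact dvd_trans (dvd_pow_self _ (by omega)) h7
  obtain ⟨j, rfl⟩ := h5
  obtain ⟨y, hy⟩ := QuotientGroup.mk'_surjective A ((w ^ j : Subgroup.center (P ⧸ A)) : P ⧸ A)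
  have hyZ : QuotientGroup.mk' A y ∈ Subgroup.center (P ⧸ A) := by rw [hy]; exact (w ^ j).2
  have hyp := Cfsg.Agent.Lib.H83GCPar.pow_mem_center p A hAZ (fun a ha => by
    have := pow_card_eq_one' (G := A) (x := ⟨a, ha⟩)
    rw [hA] at this
    exact congrArg Subtype.val this) y hyZ
  have h7 : QuotientGroup.mk' A (y ^ p) = QuotientGroup.mk' A c := by
    rw [map_pow, hy]
    have := congrArg Subtype.val hk
    rw [mul_comm, zpow_mul, zpow_natCast] at this
    exact this
  have h8 : (y ^ p)⁻¹ * c ∈ A := QuotientGroup.eq.1 h7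
  have h9 : c = y ^ p * ((y ^ p)⁻¹ * c) := by group
  rw [h9]
  exact mul_mem hyp (hAZ h8)

end Cfsg.Agent.Lib.H83GCG1
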