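import Mathlib
import Cfsg.Agent.Lib.H83GCVan

set_option autoImplicit false

/-! PROJECT 4845, piece G2 (group theory, est 90m).  Uses `H83GCVan.commutator_le_center` as a black box.

`A ≤ Z(P) ⊓ P'`, `|A| = p`, `|P'| = p^2`, `|(P/A)'| = p`, `P' ⊄ Z(P)`.  Take `C = centralizer (P' : Set P)`.
(1) `P'` is abelian (order `p^2`: `IsPGroup.commutative_of_card_eq_prime_sq`/`commGroupOfCardEqPrimeSq`).
(2) index: pick `t ∈ P'`, `t ∉ Z(P)`.  `t ∉ A`, so `P' = ⟨t⟩ A` (orders), and as `A` is central `C = centralizer {t}`.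
    `mk t ∈ (P/A)' ≤ Z(P/A)` (`commutator_le_center`), so every conjugate of `t` lies in `t A`: the class of `t` has at most `p` elements, and more than one;
    its size is `(centralizer {t}).index`, a power of `p` (divides `|P|`).  So the index is `p`.
(3) for `c d ∈ C`, `x ∈ P`: `x c x⁻¹ = z c` with `z = [x,c] ∈ P'`, `x d x⁻¹ = z' d`, and `z, z'` commute with `c, d` and with each other, so `x [c,d] x⁻¹ = [zc, z'd] = [c,d]`:
    `[c,d] ∈ Z(P) ⊓ P'`.  `A ≤ Z(P) ⊓ P' < P'` and `|P'| = p^2`, `|A| = p` give `Z(P) ⊓ P' = A`. -/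

namespace Cfsg.Agent.Lib.H83GCG2

open scoped commutatorElement

theorem exists_C {P : Type*} [Group P] [Finite P] (p : ℕ) [Fact p.Prime]
    (hP : IsPGroup p P) (A : Subgroup P) [A.Normal] (hAZ : A ≤ Subgroup.center P)
    (hAc : A ≤ commutator P) (hA : Nat.card A = p) (hc2 : Nat.card (commutator P) = p ^ 2)
    (H2 : Nat.card (commutator (P ⧸ A)) = p) (hncl : ¬ commutator P ≤ Subgroup.center P) :
    ∃ C : Subgroup P, C.index = p ∧ commutator P ≤ C ∧
      (∀ c ∈ C, ∀ t ∈ commutator P, c * t = t * c) ∧ (∀ c ∈ C, ∀ d ∈ C, ⁅c, d⁆ ∈ A) := by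
  have hp : p.Prime := Fact.out
  -- subgroups between `A` and `P'`
  have hbetween : ∀ D : Subgroup P, A ≤ D → D ≤ commutator P → D = A ∨ D = commutator P := by
    intro D h1 h2
    have hd : Nat.card D ∣ p ^ 2 := hc2 ▸ Subgroup.card_dvd_of_le h2
    obtain ⟨k, hk, hkc⟩ := (Nat.dvd_prime_pow hp).1 hd
    have hle : p ≤ Nat.card D := hA ▸ Nat.le_of_dvd Nat.card_pos (Subgroup.card_dvd_of_le h1)
    have hk' : k = 0 ∨ k = 1 ∨ k = 2 := by omega
    rcases hk' with rfl | rfl | rfl
    · rw [hkc, pow_zero] at hle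
      exact absurd hle (by have := hp.two_le; omega)
    · left
      exact (Subgroup.eq_of_le_of_card_ge h1 (by rw [hkc, hA, pow_one])).symm
    · right
      exact Subgroup.eq_of_le_of_card_ge h2 (by rw [hkc, hc2])
  -- `P'` is abelian
  have hab : ∀ s ∈ commutator P, ∀ t ∈ commutator P, s * t = t * s := by
    intro s hs t ht
    have hm := IsPGroup.isMulCommutative_of_card_eq_prime_sq (p := p) (G := commutator P) hc2
    have := hm.is_comm.comm ⟨s, hs⟩ ⟨t, ht⟩
    exact congrArg Subtype.val this
  obtain ⟨t, ht, htZ⟩ := SetLike.not_le_iff_exists.1 hncl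
  have hmap : (commutator P).map (QuotientGroup.mk' A) ≤ commutator (P ⧸ A) := by
    rw [commutator_def, commutator_def, Subgroup.map_commutator]
    exact Subgroup.commutator_mono le_top le_top
  have hcz := Cfsg.Agent.Lib.H83GCVan.commutator_le_center p (hP.to_quotient A) H2
  have hmem : ∀ g : P, ⁅g, t⁆ ∈ A := by
    intro g
    have h1 : QuotientGroup.mk' A t ∈ Subgroup.center (P ⧸ A) :=
      hcz (hmap (Subgroup.mem_map_of_mem _ ht))
    have h2 := Subgroup.mem_center_iff.1 h1 (QuotientGroup.mk' A g)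
    rw [← QuotientGroup.eq_one_iff, commutatorElement_def]
    have h3 : ((g * t * g⁻¹ * t⁻¹ : P) : P ⧸ A)
        = QuotientGroup.mk' A g * QuotientGroup.mk' A t * (QuotientGroup.mk' A g)⁻¹ * (QuotientGroup.mk' A t)⁻¹ := rfl
    rw [h3, h2]
    group
  let φ : P →* A := MonoidHom.mk' (fun g => ⟨⁅g, t⁆, hmem g⟩) (by
    intro g h
    apply Subtype.ext
    show ⁅g * h, t⁆ = ⁅g, t⁆ * ⁅h, t⁆
    have hc := Subgroup.mem_center_iff.1 (hAZ (hmem h))
    have e1 : ⁅g * h, t⁆ = g * ⁅h, t⁆ * (t * g⁻¹ * t⁻¹) := by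
      simp only [commutatorElement_def]; group
    rw [e1, hc g, mul_assoc, ← hc]
    simp only [commutatorElement_def]; group)
  have hker : ∀ g : P, g ∈ φ.ker ↔ g * t = t * g := by
    intro g
    rw [MonoidHom.mem_ker]
    constructor
    · intro h
      have h1 : ⁅g, t⁆ = 1 := congrArg Subtype.val h
      exact commutatorElement_eq_one_iff_mul_comm.1 h1
    · intro h
      apply Subtype.ext
      exact commutatorElement_eq_one_iff_mul_comm.2 h
  have hcent : ∀ c ∈ φ.ker, ∀ s ∈ commutator P, c * s = s * c := by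
    intro c hc s hs
    have hct := (hker c).1 hc
    rcases hbetween (commutator P ⊓ Subgroup.centralizer {c})
      (le_inf hAc (fun a ha => by
        rw [Subgroup.mem_centralizer_singleton_iff]
        exact (Subgroup.mem_center_iff.1 (hAZ ha) c).symm)) inf_le_left with h | h
    · exfalso
      apply htZ
      apply hAZ
      rw [← h]
      exact Subgroup.mem_inf.2 ⟨ht, by rw [Subgroup.mem_centralizer_singleton_iff]; exact hct.symm⟩
    · have : s ∈ commutator P ⊓ Subgroup.centralizer {c} := by rw [h]; exact hs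
      exact (Subgroup.mem_centralizer_singleton_iff.1 this.2).symm
  refine ⟨φ.ker, ?_, ?_, hcent, ?_⟩
  · rw [Subgroup.index_ker]
    have hd : Nat.card φ.range ∣ p := hA ▸ Subgroup.card_subgroup_dvd_card φ.range
    rcases (Nat.dvd_prime hp).1 hd with h | h
    · exfalso
      apply htZ
      rw [Subgroup.mem_center_iff]
      intro g
      rw [← hker, MonoidHom.mem_ker]
      have := Subgroup.card_eq_one.1 h
      have h2 : φ g ∈ φ.range := ⟨g, rfl⟩
      rw [this] at h2
      exact Subgroup.mem_bot.1 h2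
    · exact h
  · intro s hs
    rw [hker]
    exact hab s hs t ht
  · intro c hc d hd
    have hCC : ⁅⁅φ.ker, φ.ker⁆, (⊤ : Subgroup P)⁆ = ⊥ := by
      have hb : ∀ H : Subgroup P, H ≤ commutator P → ⁅H, φ.ker⁆ = ⊥ := by
        intro H hH
        rw [Subgroup.commutator_eq_bot_iff_le_centralizer]
        intro s hs
        rw [Subgroup.mem_centralizer_iff]
        intro c hc
        exact hcent c hc s (hH hs)
      apply Subgroup.commutator_commutator_eq_bot_of_rotate
      · apply hb
        rw [commutator_def]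
        exact Subgroup.commutator_mono le_top le_top
      · apply hb
        rw [commutator_def]
        exact Subgroup.commutator_mono le_top le_top
    rw [Subgroup.commutator_eq_bot_iff_le_centralizer, Subgroup.coe_top, Subgroup.centralizer_univ] at hCC
    have h1 : ⁅c, d⁆ ∈ Subgroup.center P := hCC (Subgroup.commutator_mem_commutator hc hd)
    have h2 : ⁅c, d⁆ ∈ commutator P := by
      rw [commutator_def]
      exact Subgroup.commutator_mem_commutator (Subgroup.mem_top _) (Subgroup.mem_top _)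
    rcases hbetween (commutator P ⊓ Subgroup.center P) (le_inf hAc hAZ) inf_le_left with h | h
    · rw [← h]; exact ⟨h2, h1⟩
    · exfalso
      apply hncl
      rw [← h]
      exact inf_le_right

end Cfsg.Agent.Lib.H83GCG2
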