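import Mathlib
import Cfsg.Prelude.Def_Characters
import Cfsg.Prelude.Def_Blocks
import Cfsg.Agent.Lib.H83GCDefs
import Cfsg.Agent.Lib.H83GCVan
import Cfsg.Agent.Lib.H83GCKer
import Cfsg.Agent.Lib.H83GCG1
import Cfsg.Agent.Lib.H83GCG2
import Cfsg.Agent.Lib.Helper5Ker
import Cfsg.Agent.Lib.Helper5Abel
import Cfsg.Agent.Lib.Helper83Ito
import Cfsg.Agent.Lib.Helper82Cod
import Cfsg.Agent.Lib.Helper82Linear

set_option autoImplicit false

/-! PROJECT 4845, piece Gamma (est 90m).  Uses Van, Ker, G1, G2 as black boxes.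

`deg_le_of_abelian`: `φ` a constituent of `χ_C` (`Helper83Ito.exists_under`), `φ 1 = 1` (`Helper5Abel.irr_one_of_comm`), `Helper5Ker.degree_le_index_mul`, `Helper82Irr.irr_charDegree_cast`.

`gamma`: `|Z(P/A)| = p` [G1]; `C` from [G2].  `C̄ = C.map (mk' A)` is an abelian subgroup of `P/A` of index `p` (`A ≤ P' ≤ C`; `Subgroup.index_map`...), so a nonlinear `θ` of `P/A`
(`exists_nonlinear`; `P/A` is nonabelian as `|(P/A)'| = p ≠ 1`) has degree `f ≤ p`.  `sq_mul_card_center`: `f^2 * p = |P/A|`, `|P/A| * p = |P| = p^n`.  So `f^2 = p^(n-2)`, `1 < f ≤ p`: `n = 4`, `f = p`.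
`|C| = p^3`, `|P'| = p^2`, `P' ≤ Z(C)`: `C/P'` has prime order, so is cyclic, so `C` is abelian (`commutative_of_cyclic_center_quotient`, or by hand: `C = ⋃ c₀^i P'`).
Take `a ∈ A`, `a ≠ 1` and `χ` with `χ a ≠ χ 1` (`Helper19TwoDeg.sep`).  `χ` is nonlinear (`a ∈ P'`: `Helper82Linear.irr_linear_eq_one_of_mem_commutator`), `χ(1) ≤ p` by `deg_le_of_abelian`,
`χ(1) ∣ |P| = p^4` (`Helper82Cod.irr_degree_dvd_card`), so `χ(1) = p = f`.  `gc_ker` applied to the inflation of `θ` (trivial on `a`) and `χ` gives `χ a = χ 1`: contradiction. -/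

namespace Cfsg.Agent.Lib.H83GCGamma

open Cfsg Cfsg.Agent.Lib.H83GCDefs

theorem deg_le_of_abelian {Q : Type*} [Group Q] [Finite Q] (C : Subgroup Q)
    (hC : ∀ c ∈ C, ∀ d ∈ C, c * d = d * c) (χ : IrrCharacter Q) :
    charDegree (χ : Q → ℂ) ≤ C.index := by
  classical
  let _ := Fintype.ofFinite Q
  let _ : Fintype C := Fintype.ofFinite C
  have : IsMulCommutative C := ⟨⟨fun a b => Subtype.ext (hC a a.2 b b.2)⟩⟩
  obtain ⟨φ, hφ⟩ := Cfsg.Agent.Lib.Helper83Ito.exists_under C χ.2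
  have h1 := Cfsg.Agent.Lib.Helper5Ker.degree_le_index_mul C χ φ hφ
  rw [Cfsg.Agent.Lib.Helper5Abel.irr_one_of_comm φ, ← Cfsg.Agent.Lib.Helper82Irr.irr_charDegree_cast] at h1
  simp only [Complex.norm_natCast, norm_one, mul_one] at h1
  exact_mod_cast h1

theorem gamma {P : Type*} [Group P] [Finite P] (p : ℕ) [Fact p.Prime]
    (hP : IsPGroup p P) (h : GC P) (A : Subgroup P) [A.Normal] (hAZ : A ≤ Subgroup.center P)
    (hAc : A ≤ commutator P) (hA : Nat.card A = p) (hc2 : Nat.card (commutator P) = p ^ 2)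
    (H1 : IsCyclic (Subgroup.center (P ⧸ A))) (H2 : Nat.card (commutator (P ⧸ A)) = p)
    (hncl : ¬ commutator P ≤ Subgroup.center P) : False := by
  have hp : p.Prime := Fact.out
  have hPq := hP.to_quotient A
  have hZ := Cfsg.Agent.Lib.H83GCG1.card_center_quot_eq p hP A hAZ hA H1 H2 hncl
  obtain ⟨C, hCi, hPC, hCc, hCA⟩ := Cfsg.Agent.Lib.H83GCG2.exists_C p hP A hAZ hAc hA hc2 H2 hncl
  have hcz := Cfsg.Agent.Lib.H83GCVan.commutator_le_center p hPq H2
  -- a `p`-power degree which is `≠ 1` and `≤ p` is `p`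
  have hdeg : ∀ (f n : ℕ), f ∣ p ^ n → f ≠ 1 → f ≤ p → f = p := by
    intro f n h1 h2 h3
    obtain ⟨j, -, rfl⟩ := (Nat.dvd_prime_pow hp).1 h1
    rcases j with _ | j
    · exact absurd (pow_zero p) h2
    · apply le_antisymm h3
      calc p = p ^ 1 := (pow_one p).symm
        _ ≤ p ^ (j + 1) := Nat.pow_le_pow_right hp.pos (by omega)
  -- the quotient is nonabelian
  have hnab : ∃ x y : P ⧸ A, x * y ≠ y * x := by
    by_contra hcon
    push Not at hcon
    have h0 : commutator (P ⧸ A) = ⊥ := by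
      rw [commutator_def, Subgroup.commutator_eq_bot_iff_le_centralizer]
      intro x _
      rw [Subgroup.mem_centralizer_iff]
      intro y _
      exact hcon y x
    rw [h0, Subgroup.card_bot] at H2
    exact hp.one_lt.ne H2
  obtain ⟨θ, hθ⟩ := Cfsg.Agent.Lib.H83GCKer.exists_nonlinear hnab
  -- degree of θ
  have hidx : (C.map (QuotientGroup.mk' A)).index = p := by
    rw [Subgroup.index_map_eq _ (QuotientGroup.mk'_surjective A) (by
      rw [QuotientGroup.ker_mk']; exact hAc.trans hPC), hCi]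
  have hθle : charDegree (θ : P ⧸ A → ℂ) ≤ p := by
    rw [← hidx]
    apply deg_le_of_abelian
    rintro _ ⟨c, hc, rfl⟩ _ ⟨d, hd, rfl⟩
    have h1 := hCA c hc d hd
    rw [← QuotientGroup.eq_one_iff, commutatorElement_def] at h1
    have h2 : ((c * d * c⁻¹ * d⁻¹ : P) : P ⧸ A)
        = QuotientGroup.mk' A c * QuotientGroup.mk' A d * (QuotientGroup.mk' A c)⁻¹ * (QuotientGroup.mk' A d)⁻¹ := rfl
    rw [h2] at h1
    exact commutatorElement_eq_one_iff_mul_comm.1 h1
  obtain ⟨nq, hnq⟩ := hPq.exists_card_eq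
  have hθp : charDegree (θ : P ⧸ A → ℂ) = p :=
    hdeg _ nq (hnq ▸ Cfsg.Agent.Lib.Helper82Cod.irr_degree_dvd_card θ) hθ hθle
  have hsq := Cfsg.Agent.Lib.H83GCVan.sq_mul_card_center p H2 hcz θ hθ
  rw [hθp, hZ] at hsq
  have hcardP : Nat.card P = p ^ 4 := by
    rw [Subgroup.card_eq_card_quotient_mul_card_subgroup A, ← hsq, hA]; ring
  have hcardC : Nat.card C = p ^ 3 := by
    have h1 := Subgroup.card_mul_index C
    rw [hCi, hcardP] at h1
    have h2 : Nat.card C * p = p ^ 3 * p := by rw [h1]; ring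
    exact Nat.eq_of_mul_eq_mul_right hp.pos h2
  -- `C` is abelian
  have hCab : ∀ c ∈ C, ∀ d ∈ C, c * d = d * c := by
    have hrel : ((commutator P).subgroupOf C).index = p := by
      have h1 := Subgroup.card_mul_index ((commutator P).subgroupOf C)
      rw [Nat.card_congr (Subgroup.subgroupOfEquivOfLe hPC).toEquiv, hc2, hcardC] at h1
      have h2 : p ^ 2 * ((commutator P).subgroupOf C).index = p ^ 2 * p := by rw [h1]; ring
      exact Nat.eq_of_mul_eq_mul_left (pow_pos hp.pos 2) h2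
    have hcq : Nat.card (C ⧸ (commutator P).subgroupOf C) = p := by
      rw [← Subgroup.index_eq_card]; exact hrel
    have hcyc : IsCyclic (C ⧸ (commutator P).subgroupOf C) := isCyclic_of_prime_card hcq
    intro c hc d hd
    have hm := MonoidHom.isMulCommutative_of_isCyclic_of_ker_le_center
      (QuotientGroup.mk' ((commutator P).subgroupOf C)) (by
      rw [QuotientGroup.ker_mk']
      intro s hs
      rw [Subgroup.mem_center_iff]
      intro g
      apply Subtype.ext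
      exact hCc g g.2 s (Subgroup.mem_subgroupOf.1 hs))
    have := hm.is_comm.comm ⟨c, hc⟩ ⟨d, hd⟩
    exact congrArg Subtype.val this
  -- a character nontrivial on `A`
  obtain ⟨a, haA, ha1⟩ : ∃ a ∈ A, a ≠ 1 := by
    by_contra hcon
    push Not at hcon
    have h0 : A = ⊥ := (Subgroup.eq_bot_iff_forall A).2 hcon
    rw [h0, Subgroup.card_bot] at hA
    exact hp.one_lt.ne hA
  obtain ⟨χ, hχ⟩ : ∃ χ : IrrCharacter P, (χ : P → ℂ) a ≠ (χ : P → ℂ) 1 := by
    by_contra hcon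
    push Not at hcon
    exact ha1 (Cfsg.Agent.Lib.Helper19TwoDeg.sep a hcon)
  have hχ1 : charDegree (χ : P → ℂ) ≠ 1 := by
    intro h1
    have h2 : (χ : P → ℂ) 1 = 1 := by
      rw [← Cfsg.Agent.Lib.Helper82Irr.irr_charDegree_cast, h1, Nat.cast_one]
    apply hχ
    rw [Cfsg.Agent.Lib.Helper82Linear.irr_linear_eq_one_of_mem_commutator χ h2 (hAc haA), h2]
  have hχp : charDegree (χ : P → ℂ) = p :=
    hdeg _ 4 (hcardP ▸ Cfsg.Agent.Lib.Helper82Cod.irr_degree_dvd_card χ) hχ1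
      (hCi ▸ deg_le_of_abelian C hCab χ)
  have hinf : charDegree (Cfsg.Agent.Lib.Helper82Quot.inflate A θ : P → ℂ) = charDegree (θ : P ⧸ A → ℂ) := rfl
  exact hχ (Cfsg.Agent.Lib.H83GCKer.gc_ker h (Cfsg.Agent.Lib.Helper82Quot.inflate A θ) χ
    (by rw [hinf]; exact hθ) (by rw [hinf, hθp, hχp]) a (Cfsg.Agent.Lib.Helper82Quot.inflate_ker A θ haA))

end Cfsg.Agent.Lib.H83GCGamma
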