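import Mathlib
import Cfsg.Prelude.Def_Characters
import Cfsg.Prelude.Def_Blocks
import Cfsg.Agent.Lib.H83GCDefs
import Cfsg.Agent.Lib.H83GCVan
import Cfsg.Agent.Lib.H83GCKer
import Cfsg.Agent.Lib.H83GCBase
import Cfsg.Agent.Lib.H83GCConv
import Cfsg.Agent.Lib.H83GCBeta
import Cfsg.Agent.Lib.H83GCAlpha
import Cfsg.Agent.Lib.H83GCGamma
import Cfsg.Agent.Lib.Helper67PGroup

set_option autoImplicit false

/-! Assembly of project 4845. -/

namespace Cfsg.Agent.Lib.H83GCMain

open Cfsg Cfsg.Agent.Lib.H83GCDefs
open scoped commutatorElement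

universe u

theorem normal_of_le_center {G : Type*} [Group G] {W : Subgroup G} (h : W ≤ Subgroup.center G) :
    W.Normal := by
  constructor
  intro a ha r
  have h1 := Subgroup.mem_center_iff.mp (h ha) r
  rw [h1, mul_assoc, mul_inv_cancel, mul_one]
  exact ha

/-- a central element of order `p` in a nontrivial normal subgroup. -/
theorem exists_central {P : Type*} [Group P] [Finite P] (p : ℕ) [Fact p.Prime]
    (hP : IsPGroup p P) (N : Subgroup P) [N.Normal] (hN : N ≠ ⊥) :
    ∃ a ∈ N, a ∈ Subgroup.center P ∧ orderOf a = p := by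
  have h1 := Cfsg.Agent.Lib.Helper67PGroup.normal_inf_center_ne_bot hP N hN
  have h2 : IsPGroup p (N ⊓ Subgroup.center P : Subgroup P) := hP.to_subgroup _
  have h3 : p ∣ Nat.card (N ⊓ Subgroup.center P : Subgroup P) := by
    rcases h2.card_eq_or_dvd with h | h
    · exact absurd (Subgroup.card_eq_one.mp h) h1
    · exact h
  obtain ⟨b, hb⟩ := exists_prime_orderOf_dvd_card' p h3
  exact ⟨b, b.2.1, b.2.2, by rw [← hb, Subgroup.orderOf_coe]⟩

/-- the order of the commutator subgroup of a quotient by `A ≤ P'`. -/
theorem card_commutator_quot {P : Type*} [Group P] [Finite P] (A : Subgroup P) [A.Normal]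
    (hAc : A ≤ commutator P) :
    Nat.card (commutator (P ⧸ A)) * Nat.card A = Nat.card (commutator P) := by
  have h1 : (commutator (P ⧸ A)).comap (QuotientGroup.mk' A) = commutator P := by
    have h2 : commutator (P ⧸ A) = (commutator P).map (QuotientGroup.mk' A) := by
      rw [commutator_def, commutator_def, Subgroup.map_commutator,
        Subgroup.map_top_of_surjective _ (QuotientGroup.mk'_surjective A)]
    rw [h2, Subgroup.comap_map_eq, QuotientGroup.ker_mk', sup_eq_left.mpr hAc]
  have h3 : (commutator (P ⧸ A)).index = (commutator P).index := by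
    rw [← h1, Subgroup.index_comap_of_surjective _ (QuotientGroup.mk'_surjective A)]
  have h4 := (commutator (P ⧸ A)).card_mul_index
  have h5 := (commutator P).card_mul_index
  have h6 := A.card_eq_card_quotient_mul_card_subgroup
  rw [h3] at h4
  have hpos : 0 < (commutator P).index := Nat.pos_of_ne_zero Subgroup.index_ne_zero_of_finite
  apply Nat.eq_of_mul_eq_mul_right hpos
  rw [h5, h6, ← h4]
  ring

theorem forward (p : ℕ) [Fact p.Prime] : ∀ (n : ℕ) (P : Type u) [Group P] [Finite P],
    Nat.card P = n → IsPGroup p P → (∃ x y : P, x * y ≠ y * x) → GC P →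
    IsCyclic (Subgroup.center P) ∧ Nat.card (commutator P) = p := by
  intro n
  induction n using Nat.strong_induction_on with
  | _ n ih =>
  intro P _ _ hn hP hna hgc
  have hp : p.Prime := Fact.out
  have hcne : commutator P ≠ ⊥ := by
    intro h0
    obtain ⟨x, y, hxy⟩ := hna
    apply hxy
    have h1 : ⁅x, y⁆ ∈ commutator P := by
      rw [commutator_def]
      exact Subgroup.commutator_mem_commutator (Subgroup.mem_top x) (Subgroup.mem_top y)
    rw [h0, Subgroup.mem_bot, commutatorElement_eq_one_iff_mul_comm] at h1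
    exact h1
  have IH : ∀ (D : Subgroup P) [D.Normal], D ≠ ⊥ → (∃ x y : P ⧸ D, x * y ≠ y * x) →
      IsCyclic (Subgroup.center (P ⧸ D)) ∧ Nat.card (commutator (P ⧸ D)) = p := by
    intro D _ hD hnaD
    have hlt : Nat.card (P ⧸ D) < n := by
      rw [← hn, D.card_eq_card_quotient_mul_card_subgroup]
      have h1 : 1 < Nat.card D := by
        rw [Finite.one_lt_card_iff_nontrivial]
        exact (Subgroup.nontrivial_iff_ne_bot D).mpr hD
      have h2 : 0 < Nat.card (P ⧸ D) := Nat.card_pos
      nlinarith
    exact ih _ hlt (P ⧸ D) rfl (hP.to_quotient D) hnaD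
      (Cfsg.Agent.Lib.H83GCKer.gc_quot hgc D)
  obtain ⟨a, haC, haZ, hao⟩ := exists_central p hP (commutator P) hcne
  set A : Subgroup P := Subgroup.zpowers a with hAdef
  have hAZ : A ≤ Subgroup.center P := Subgroup.zpowers_le.mpr haZ
  have hAc : A ≤ commutator P := Subgroup.zpowers_le.mpr haC
  have hAn : A.Normal := normal_of_le_center hAZ
  have hA : Nat.card A = p := by rw [hAdef, Nat.card_zpowers, hao]
  have hAne : A ≠ ⊥ := by
    intro h0
    rw [h0, Subgroup.card_bot] at hA
    exact hp.one_lt.ne hA
  have hcq := card_commutator_quot A hAc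
  suffices hc : Nat.card (commutator P) = p from
    ⟨Cfsg.Agent.Lib.H83GCBase.center_cyclic p hP hgc hc, hc⟩
  by_cases hq : ∃ x y : P ⧸ A, x * y ≠ y * x
  · exfalso
    obtain ⟨H1, H2⟩ := IH A hAne hq
    have hc2 : Nat.card (commutator P) = p ^ 2 := by rw [← hcq, H2, hA, sq]
    by_cases hcl : commutator P ≤ Subgroup.center P
    · have hp2 : ∀ c ∈ commutator P, c ^ p ∈ A := by
        intro c hc
        have h1 : (QuotientGroup.mk' A c) ∈ commutator (P ⧸ A) := by
          have h2 : commutator (P ⧸ A) = (commutator P).map (QuotientGroup.mk' A) := by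
            rw [commutator_def, commutator_def, Subgroup.map_commutator,
              Subgroup.map_top_of_surjective _ (QuotientGroup.mk'_surjective A)]
          rw [h2]
          exact ⟨c, hc, rfl⟩
        have h3 : (⟨_, h1⟩ : commutator (P ⧸ A)) ^ p = 1 := by
          rw [← H2]; exact pow_card_eq_one'
        have h4 := congrArg Subtype.val h3
        simp only [Subgroup.coe_pow, Subgroup.coe_one] at h4
        rw [← map_pow] at h4
        exact (QuotientGroup.eq_one_iff _).mp h4
      have hbeta := Cfsg.Agent.Lib.H83GCBeta.comm_pow_eq_one p hP A hAZ H1 hcl hp2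
      have hexp : ∀ c ∈ commutator P, c ^ p = 1 := by
        intro c hc
        rw [commutator_eq_closure] at hc
        induction hc using Subgroup.closure_induction with
        | mem x hx =>
          obtain ⟨u, v, rfl⟩ := hx
          exact hbeta u v
        | one => exact one_pow p
        | mul x y hx hy ihx ihy =>
          have hxZ : x ∈ Subgroup.center P := hcl (by rw [commutator_eq_closure]; exact hx)
          have hcomm : Commute x y := (Subgroup.mem_center_iff.mp hxZ y).symm
          rw [hcomm.mul_pow, ihx, ihy, one_mul]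
        | inv x hx ihx => rw [inv_pow, ihx, inv_one]
      exact Cfsg.Agent.Lib.H83GCAlpha.alpha p hP hgc IH hcl hexp hc2
    · exact Cfsg.Agent.Lib.H83GCGamma.gamma p hP hgc A hAZ hAc hA hc2 H1 H2 hcl
  · push Not at hq
    have h1 : commutator (P ⧸ A) = ⊥ := by
      rw [commutator_eq_bot_iff_center_eq_top, Subgroup.eq_top_iff']
      intro x
      rw [Subgroup.mem_center_iff]
      intro g
      exact hq g x
    rw [h1, Subgroup.card_bot, one_mul] at hcq
    rw [← hcq, hA]

end Cfsg.Agent.Lib.H83GCMain
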