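import Mathlib
import Cfsg.Agent.Lib.Helper4Char2

set_option autoImplicit false

/-!
# Project 4756 (MU), piece Cam (PURE MATHLIB)
-/

namespace Cfsg.Agent.Lib.H83MUCam

open scoped commutatorElement

/-- If `|C_G(a)| = |G : G'|` then `a` is conjugate to every element of the coset `G' a`. -/
theorem cam {G : Type*} [Group G] [Finite G] (a : G)
    (h : Nat.card (Subgroup.centralizer ({a} : Set G)) = (commutator G).index) :
    ∀ d ∈ commutator G, IsConj a (d * a) := by
  have h1 := Cfsg.Agent.Lib.Helper4Char2.card_isConj_mul_card_centralizer a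
  have h2 := (commutator G).card_mul_index
  rw [h] at h1
  have hpos : 0 < (commutator G).index := Nat.pos_of_ne_zero Subgroup.index_ne_zero_of_finite
  have hcard : Nat.card {x // IsConj a x} = Nat.card (commutator G) :=
    Nat.eq_of_mul_eq_mul_right hpos (h1.trans h2.symm)
  have hmem : ∀ x : {x // IsConj a x}, x.1 * a⁻¹ ∈ commutator G := by
    rintro ⟨x, hx⟩
    obtain ⟨c, hc⟩ := isConj_iff.1 hx
    have : x * a⁻¹ = ⁅c, a⁆ := by rw [commutatorElement_def, hc]
    simp only
    rw [this, commutator_def]
    exact Subgroup.commutator_mem_commutator (Subgroup.mem_top c) (Subgroup.mem_top a)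
  let f : {x // IsConj a x} → commutator G := fun x => ⟨x.1 * a⁻¹, hmem x⟩
  have hinj : Function.Injective f := by
    intro x y hxy
    have := congrArg Subtype.val hxy
    exact Subtype.ext (mul_right_cancel this)
  have hbij := hinj.bijective_of_nat_card_le hcard.ge
  intro d hd
  obtain ⟨x, hx⟩ := hbij.2 ⟨d, hd⟩
  have h3 : x.1 * a⁻¹ = d := congrArg Subtype.val hx
  have h4 : d * a = x.1 := by rw [← h3]; group
  rw [h4]
  exact x.2

end Cfsg.Agent.Lib.H83MUCam
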