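import Mathlib
import Cfsg.Prelude.Def_Characters

set_option autoImplicit false

/-!
# Project 4756 (MU): definitions
-/

namespace Cfsg.Agent.Lib.H83MUDefs

/-- the hypothesis (1) of S4756 -/
def Hyp (G : Type*) [Group G] : Prop :=
  ∀ (x y : G) (χ : Cfsg.IrrCharacter G), x ≠ 1 → y ≠ 1 →
    (∃ p q a b : ℕ, p.Prime ∧ q.Prime ∧ p ≠ q ∧ orderOf x = p ^ a ∧ orderOf y = q ^ b) →
    (χ : G → ℂ) (x * y) = (χ : G → ℂ) x * (χ : G → ℂ) y

/-- `χ` vanishes on all non-identity `q`-elements for all primes `q ≠ p` -/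
def Van1 {G : Type*} [Group G] (p : ℕ) (χ : Cfsg.IrrCharacter G) : Prop :=
  ∀ (q b : ℕ) (y : G), q.Prime → q ≠ p → y ≠ 1 → orderOf y = q ^ b → (χ : G → ℂ) y = 0

/-- all nonlinear irreducible characters vanish on the non-identity `q`-elements, `q ≠ p` -/
def VanP (p : ℕ) (G : Type*) [Group G] : Prop :=
  ∀ χ : Cfsg.IrrCharacter G, (χ : G → ℂ) 1 ≠ 1 → Van1 p χ

/-- every non-identity `q`-element `a`, `q ≠ p`, is conjugate to all elements of the coset `G' a` -/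
def CamP (p : ℕ) (G : Type*) [Group G] : Prop :=
  ∀ (q b : ℕ) (a : G), q.Prime → q ≠ p → a ≠ 1 → orderOf a = q ^ b →
    ∀ d ∈ commutator G, IsConj a (d * a)

end Cfsg.Agent.Lib.H83MUDefs
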