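import Mathlib
import Cfsg.Agent.Lib.H83MUDefs
import Cfsg.Agent.Lib.Helper4Char2
import Cfsg.Agent.Lib.Helper82Linear
import Cfsg.Agent.S0154

set_option autoImplicit false

/-!
# Project 4756 (MU), piece Cen
-/

namespace Cfsg.Agent.Lib.H83MUCen

open Cfsg.Agent.Lib.H83MUDefs

open Classical in
theorem key {G : Type*} [Group G] [Finite G] (g : G) :
    (Nat.card (Subgroup.centralizer ({g} : Set G)) : ℝ) = ((commutator G).index : ℝ)
      + ∑ χ : Cfsg.IrrCharacter G,
          (if (χ : G → ℂ) 1 = 1 then 0 else Complex.normSq ((χ : G → ℂ) g)) := by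
  have := Fintype.ofFinite G
  have h1 := Cfsg.Agent.Lib.Helper4Char2.col_orth g g
  rw [if_pos (IsConj.refl g)] at h1
  have h2 : ∑ χ : Cfsg.IrrCharacter G, Complex.normSq ((χ : G → ℂ) g)
      = (Nat.card (Subgroup.centralizer ({g} : Set G)) : ℝ) := by
    have h3 : ((∑ χ : Cfsg.IrrCharacter G, Complex.normSq ((χ : G → ℂ) g) : ℝ) : ℂ)
        = ((Nat.card (Subgroup.centralizer ({g} : Set G)) : ℝ) : ℂ) := by
      push_cast
      rw [← h1]
      apply Finset.sum_congr rfl
      intro χ _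
      rw [Complex.mul_conj]
    exact_mod_cast h3
  rw [← h2]
  have h4 : ∀ χ : Cfsg.IrrCharacter G, Complex.normSq ((χ : G → ℂ) g)
      = (if (χ : G → ℂ) 1 = 1 then (1 : ℝ) else 0)
        + (if (χ : G → ℂ) 1 = 1 then 0 else Complex.normSq ((χ : G → ℂ) g)) := by
    intro χ
    by_cases hχ : (χ : G → ℂ) 1 = 1
    · rw [if_pos hχ, if_pos hχ, add_zero]
      have h5 := Cfsg.Agent.Lib.Helper82Linear.irr_linear_mul_conj χ hχ g
      rw [Complex.mul_conj] at h5
      exact_mod_cast h5
    · rw [if_neg hχ, if_neg hχ, zero_add]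
  rw [Finset.sum_congr rfl (fun χ _ => h4 χ), Finset.sum_add_distrib]
  congr 1
  rw [Finset.sum_boole, ← Cfsg.Agent.S0154.result (G := G), Nat.card_eq_fintype_card,
    Fintype.card_subtype]

/-- If all nonlinear irreducible characters vanish at `a` then `|C_G(a)| = |G : G'|`. -/
theorem card_centralizer {G : Type*} [Group G] [Finite G] (a : G)
    (h : ∀ χ : Cfsg.IrrCharacter G, (χ : G → ℂ) 1 ≠ 1 → (χ : G → ℂ) a = 0) :
    Nat.card (Subgroup.centralizer ({a} : Set G)) = (commutator G).index := by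
  classical
  have h1 := key a
  have h2 : ∑ χ : Cfsg.IrrCharacter G,
      (if (χ : G → ℂ) 1 = 1 then 0 else Complex.normSq ((χ : G → ℂ) a)) = 0 := by
    apply Finset.sum_eq_zero
    intro χ _
    by_cases hχ : (χ : G → ℂ) 1 = 1
    · rw [if_pos hχ]
    · rw [if_neg hχ, h χ hχ]; simp
  rw [h2, add_zero] at h1
  exact_mod_cast h1

/-- CONVERSE inequality form.  If `|C_G(g)| ≤ |G : G'|` then all nonlinear irreducible characters
vanish at `g`. -/
theorem van_of_card_le {G : Type*} [Group G] [Finite G] (g : G)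
    (h : Nat.card (Subgroup.centralizer ({g} : Set G)) ≤ (commutator G).index)
    (χ : Cfsg.IrrCharacter G) (hχ : (χ : G → ℂ) 1 ≠ 1) : (χ : G → ℂ) g = 0 := by
  classical
  have h1 := key g
  have h' : (Nat.card (Subgroup.centralizer ({g} : Set G)) : ℝ) ≤ ((commutator G).index : ℝ) := by
    exact_mod_cast h
  have hnn : ∀ χ ∈ (Finset.univ : Finset (Cfsg.IrrCharacter G)),
      0 ≤ (if (χ : G → ℂ) 1 = 1 then 0 else Complex.normSq ((χ : G → ℂ) g)) := by
    intro χ _
    split_ifs
    · exact le_rfl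
    · exact Complex.normSq_nonneg _
  have h2 : ∑ χ : Cfsg.IrrCharacter G,
      (if (χ : G → ℂ) 1 = 1 then 0 else Complex.normSq ((χ : G → ℂ) g)) = 0 := by
    apply le_antisymm
    · linarith
    · exact Finset.sum_nonneg hnn
  have h3 := (Finset.sum_eq_zero_iff_of_nonneg hnn).1 h2 χ (Finset.mem_univ _)
  rw [if_neg hχ] at h3
  exact Complex.normSq_eq_zero.1 h3

end Cfsg.Agent.Lib.H83MUCen
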