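import Mathlib
import Cfsg.Agent.Lib.H83MUDefs

set_option autoImplicit false

/-!
# Project 4756 (MU), piece Comm (PURE MATHLIB)
-/

namespace Cfsg.Agent.Lib.H83MUComm

open Cfsg.Agent.Lib.H83MUDefs
open scoped commutatorElement

/-- `[A, P] = G'`. -/
theorem comm_eq {G : Type*} [Group G] [Finite G] (p : ℕ) [Fact p.Prime] (hcam : CamP p G)
    (P : Sylow p G) (hPn : (P : Subgroup G).Normal) (A : Subgroup G) (hA1 : A ≠ ⊥)
    (hA : (Nat.card A).Coprime p) (hAP : A ⊔ (P : Subgroup G) = ⊤)
    (hab : ∀ a ∈ A, ∀ b ∈ A, a * b = b * a) :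
    ⁅A, (P : Subgroup G)⁆ = commutator G := by
  have hp : p.Prime := Fact.out
  apply le_antisymm
  · rw [commutator_def]
    exact Subgroup.commutator_mono le_top le_top
  · have hc1 : Nat.card A ≠ 1 := fun h => hA1 (Subgroup.card_eq_one.1 h)
    set q := (Nat.card A).minFac with hq
    have hqp : q.Prime := Nat.minFac_prime hc1
    have hqd : q ∣ Nat.card A := Nat.minFac_dvd _
    have hqne : q ≠ p := by
      intro h
      rw [h] at hqd
      have := Nat.Coprime.eq_one_of_dvd hA.symm hqd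
      exact hp.one_lt.ne' this
    have : Fact q.Prime := ⟨hqp⟩
    obtain ⟨⟨a, haA⟩, hoa⟩ := exists_prime_orderOf_dvd_card' (G := A) q hqd
    rw [Subgroup.orderOf_mk] at hoa
    have ha1 : a ≠ 1 := by
      intro h
      rw [h, orderOf_one] at hoa
      exact hqp.one_lt.ne hoa
    intro d hd
    obtain ⟨g, hg⟩ := isConj_iff.1 (hcam q 1 a hqp hqne ha1 (by rw [hoa, pow_one]) d hd)
    have hgmem : g ∈ (↑((P : Subgroup G) ⊔ A) : Set G) := by
      rw [sup_comm, hAP]; exact Set.mem_univ g
    rw [Subgroup.normal_mul] at hgmem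
    obtain ⟨u, hu, b, hb, rfl⟩ := Set.mem_mul.1 hgmem
    have hbab : b * a * b⁻¹ = a := by
      rw [hab b hb a haA]; group
    have h1 : u * a * u⁻¹ = d * a := by
      rw [← hg]
      calc u * a * u⁻¹ = u * (b * a * b⁻¹) * u⁻¹ := by rw [hbab]
        _ = _ := by group
    have h2 : d = ⁅u, a⁆ := by
      rw [commutatorElement_def, h1]; group
    rw [h2, Subgroup.commutator_comm]
    exact Subgroup.commutator_mem_commutator hu haA

end Cfsg.Agent.Lib.H83MUComm
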