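import Mathlib

set_option autoImplicit false

/-!
# Project 4756 (MU), piece Compl (PURE MATHLIB)
-/

namespace Cfsg.Agent.Lib.H83MUCompl

/-- `G'` a `p`-group, `G` not a `p`-group: the Sylow `p`-subgroup `P` is normal, contains `G'`, and
has an abelian complement `A ≠ 1`. -/
theorem compl {G : Type*} [Group G] [Finite G] (p : ℕ) [Fact p.Prime]
    (hG' : IsPGroup p (commutator G)) (hnp : ¬ IsPGroup p G) (P : Sylow p G) :
    (P : Subgroup G).Normal ∧ commutator G ≤ (P : Subgroup G) ∧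
      ∃ A : Subgroup G, A ≠ ⊥ ∧ (Nat.card A).Coprime p ∧ A ⊔ (P : Subgroup G) = ⊤ ∧
        A ⊓ (P : Subgroup G) = ⊥ ∧ ∀ a ∈ A, ∀ b ∈ A, a * b = b * a := by
  have hp : p.Prime := Fact.out
  have hcomm : ∀ x y : G, x * y * x⁻¹ * y⁻¹ ∈ commutator G := fun x y => by
    have := Subgroup.commutator_mem_commutator (Subgroup.mem_top x) (Subgroup.mem_top y)
    rw [commutatorElement_def] at this
    exact this
  have hle : commutator G ≤ (P : Subgroup G) := hG'.le_sylow_of_normal P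
  have hn : (P : Subgroup G).Normal := by
    refine ⟨fun x hx g => ?_⟩
    have : g * x * g⁻¹ = (g * x * g⁻¹ * x⁻¹) * x := by group
    rw [this]
    exact (P : Subgroup G).mul_mem (hle (hcomm g x)) hx
  refine ⟨hn, hle, ?_⟩
  obtain ⟨A, hA⟩ := Subgroup.exists_right_complement'_of_coprime (N := (P : Subgroup G))
    P.card_coprime_index
  have hinf : A ⊓ (P : Subgroup G) = ⊥ := by
    rw [inf_comm]; exact disjoint_iff.1 hA.disjoint
  have hsup : A ⊔ (P : Subgroup G) = ⊤ := by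
    rw [sup_comm]; exact hA.sup_eq_top
  refine ⟨A, ?_, ?_, hsup, hinf, ?_⟩
  · rintro rfl
    rw [bot_sup_eq] at hsup
    apply hnp
    have h2 := P.2
    rw [hsup] at h2
    exact h2.of_equiv Subgroup.topEquiv
  · rw [← hA.symm.index_eq_card]
    exact ((Nat.Prime.coprime_iff_not_dvd hp).2 P.not_dvd_index).symm
  · intro a ha b hb
    have h1 : a * b * a⁻¹ * b⁻¹ ∈ A ⊓ (P : Subgroup G) :=
      ⟨A.mul_mem (A.mul_mem (A.mul_mem ha hb) (A.inv_mem ha)) (A.inv_mem hb), hle (hcomm a b)⟩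
    rw [hinf, Subgroup.mem_bot] at h1
    calc a * b = (a * b * a⁻¹ * b⁻¹) * (b * a) := by group
      _ = b * a := by rw [h1, one_mul]

end Cfsg.Agent.Lib.H83MUCompl
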