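import Mathlib
import Cfsg.Agent.S0040

set_option autoImplicit false

/-!
# Project 4756 (MU), piece Cyc: an abelian group acting fixed point freely is cyclic
-/

namespace Cfsg.Agent.Lib.H83MUCyc

theorem quat_not_comm (n : ℕ) (hn : 1 ≤ n) :
    (QuaternionGroup.a 1 : QuaternionGroup (2 ^ n)) * QuaternionGroup.xa 0
      ≠ QuaternionGroup.xa 0 * QuaternionGroup.a 1 := by
  rw [QuaternionGroup.a_mul_xa, QuaternionGroup.xa_mul_a]
  intro h
  have h1 : (0 - 1 : ZMod (2 * 2 ^ n)) = 0 + 1 := QuaternionGroup.xa.inj h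
  have h2 : ((2 : ℕ) : ZMod (2 * 2 ^ n)) = 0 := by
    have : (0 + 1 : ZMod (2 * 2 ^ n)) - (0 - 1) = 0 := by rw [h1]; ring
    have e : (0 + 1 : ZMod (2 * 2 ^ n)) - (0 - 1) = 2 := by ring
    rw [e] at this
    exact_mod_cast this
  rw [ZMod.natCast_eq_zero_iff] at h2
  have h3 : 2 * 2 ^ n ≤ 2 := Nat.le_of_dvd (by norm_num) h2
  have h4 : 2 ^ 1 ≤ 2 ^ n := Nat.pow_le_pow_right (by norm_num) hn
  omega

theorem cyclic_of_fpf {G : Type*} [Group G] [Finite G] (A D : Subgroup G) [D.Normal] (hD : D ≠ ⊥)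
    (hab : ∀ a ∈ A, ∀ b ∈ A, a * b = b * a)
    (hfpf : ∀ a ∈ A, a ≠ 1 → ∀ d ∈ D, a * d = d * a → d = 1) : IsCyclic A := by
  have hAD : ∀ x, x ∈ A → x ∈ D → x = 1 := by
    intro x hxA hxD
    by_contra hx1
    exact hx1 (hfpf x hxA hx1 x hxD rfl)
  set H := D ⊔ A with hH
  have hDH : D ≤ H := le_sup_left
  have hAH : A ≤ H := le_sup_right
  have hKn : (D.subgroupOf H).Normal := Subgroup.Normal.subgroupOf inferInstance H
  have hK : D.subgroupOf H ≠ ⊥ := by
    intro h
    rw [Subgroup.subgroupOf_eq_bot] at h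
    apply hD
    rw [eq_bot_iff]
    exact h le_rfl hDH
  have hc : Subgroup.IsComplement' (D.subgroupOf H) (A.subgroupOf H) := by
    apply Subgroup.isComplement'_of_disjoint_and_mul_eq_univ
    · rw [Subgroup.disjoint_def]
      intro x hxD hxA
      exact Subtype.ext (hAD x.1 hxA hxD)
    · rw [Set.eq_univ_iff_forall]
      rintro ⟨x, hx⟩
      have hx' : x ∈ (↑(D ⊔ A) : Set G) := hx
      rw [Subgroup.normal_mul] at hx'
      obtain ⟨d, hd, a, ha, rfl⟩ := Set.mem_mul.1 hx'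
      exact Set.mem_mul.2 ⟨⟨d, hDH hd⟩, hd, ⟨a, hAH ha⟩, ha, rfl⟩
  have hfpf' : ∀ h ∈ A.subgroupOf H, h ≠ 1 →
      D.subgroupOf H ⊓ Subgroup.centralizer {h} = ⊥ := by
    intro h hh h1
    rw [eq_bot_iff]
    intro d hd'
    obtain ⟨hd, hdc⟩ := Subgroup.mem_inf.1 hd'
    rw [Subgroup.mem_centralizer_singleton_iff] at hdc
    rw [Subgroup.mem_bot]
    apply Subtype.ext
    apply hfpf h.1 hh (fun e => h1 (Subtype.ext e)) d.1 hd
    exact (congrArg Subtype.val hdc).symm
  have hcommA' : ∀ x y : A.subgroupOf H, x * y = y * x := by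
    intro x y
    apply Subtype.ext
    apply Subtype.ext
    exact hab _ x.2 _ y.2
  have hZ : IsZGroup (A.subgroupOf H) := by
    refine ⟨fun q hq Q => ?_⟩
    have : Fact q.Prime := ⟨hq⟩
    rcases Cfsg.Agent.S0040.result (D.subgroupOf H) (A.subgroupOf H) hc hK hfpf' q Q with h | ⟨n, ⟨e⟩⟩
    · exact h
    · rcases Nat.eq_zero_or_pos n with h0 | h0
      · subst h0
        have := QuaternionGroup.quaternionGroup_one_isCyclic
        exact isCyclic_of_surjective e.symm e.symm.surjective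
      · exfalso
        apply quat_not_comm n h0
        apply e.symm.injective
        rw [map_mul, map_mul]
        apply Subtype.ext
        exact hcommA' _ _
  have hnil : Group.IsNilpotent (A.subgroupOf H) := by
    refine ⟨⟨1, ?_⟩⟩
    rw [Subgroup.upperCentralSeries_one, Subgroup.eq_top_iff']
    intro x
    rw [Subgroup.mem_center_iff]
    intro y
    exact hcommA' y x
  have hcyc : IsCyclic (A.subgroupOf H) := inferInstance
  exact isCyclic_of_surjective (Subgroup.subgroupOfEquivOfLe hAH)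
    (Subgroup.subgroupOfEquivOfLe hAH).surjective

end Cfsg.Agent.Lib.H83MUCyc
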