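import Mathlib

set_option autoImplicit false

/-!
# Project 4756 (MU), piece Dec (PURE MATHLIB)
-/

namespace Cfsg.Agent.Lib.H83MUDec

/-- `D = G' ≤ P`, `A ≠ 1` abelian acting fixed point freely on `D`.  Then `P = C_P(A) D`,
`C_P(A) ∩ D = 1`, `C_P(A)` abelian. -/
theorem dec {G : Type*} [Group G] [Finite G] (P A : Subgroup G) (hDP : commutator G ≤ P)
    (hA1 : A ≠ ⊥) (hab : ∀ a ∈ A, ∀ b ∈ A, a * b = b * a)
    (hfpf : ∀ a ∈ A, a ≠ 1 → ∀ d ∈ commutator G, a * d = d * a → d = 1) :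
    IsMulCommutative ↥(P ⊓ Subgroup.centralizer (A : Set G)) ∧
      (P ⊓ Subgroup.centralizer (A : Set G)) ⊔ commutator G = P ∧
      (P ⊓ Subgroup.centralizer (A : Set G)) ⊓ commutator G = ⊥ := by
  obtain ⟨a₀, ha₀, ha₀1⟩ : ∃ a ∈ A, a ≠ 1 := by
    by_contra hcon
    push Not at hcon
    exact hA1 ((Subgroup.eq_bot_iff_forall A).2 hcon)
  have hcomm : ∀ x y : G, x * y * x⁻¹ * y⁻¹ ∈ commutator G := fun x y => by
    have := Subgroup.commutator_mem_commutator (Subgroup.mem_top x) (Subgroup.mem_top y)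
    rw [commutatorElement_def] at this
    exact this
  have hinf : (P ⊓ Subgroup.centralizer (A : Set G)) ⊓ commutator G = ⊥ := by
    rw [Subgroup.eq_bot_iff_forall]
    intro x hx
    have hxD : x ∈ commutator G := hx.2
    have hxc : x ∈ Subgroup.centralizer (A : Set G) := hx.1.2
    rw [Subgroup.mem_centralizer_iff] at hxc
    exact hfpf a₀ ha₀ ha₀1 x hxD (hxc a₀ ha₀)
  refine ⟨⟨⟨fun x y => ?_⟩⟩, ?_, hinf⟩
  · have h1 : (x : G) * y * (x : G)⁻¹ * (y : G)⁻¹ ∈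
        (P ⊓ Subgroup.centralizer (A : Set G)) ⊓ commutator G :=
      ⟨Subgroup.mul_mem _ (Subgroup.mul_mem _ (Subgroup.mul_mem _ x.2 y.2)
        (Subgroup.inv_mem _ x.2)) (Subgroup.inv_mem _ y.2), hcomm _ _⟩
    rw [hinf, Subgroup.mem_bot] at h1
    apply Subtype.ext
    show (x : G) * y = y * x
    calc (x : G) * y = ((x : G) * y * (x : G)⁻¹ * (y : G)⁻¹) * (y * x) := by group
      _ = y * x := by rw [h1, one_mul]
  · apply le_antisymm (sup_le inf_le_left hDP)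
    intro u hu
    let f : commutator G → commutator G := fun d => ⟨d * a₀ * (d : G)⁻¹ * a₀⁻¹, hcomm _ _⟩
    have hinj : Function.Injective f := by
      intro d e hde
      have h1 : (d : G) * a₀ * (d : G)⁻¹ * a₀⁻¹ = e * a₀ * (e : G)⁻¹ * a₀⁻¹ :=
        congrArg Subtype.val hde
      have h3 : (d : G) * a₀ * (d : G)⁻¹ = e * a₀ * (e : G)⁻¹ := mul_right_cancel h1
      have h2 : a₀ * ((e : G)⁻¹ * d) = ((e : G)⁻¹ * d) * a₀ := by
        calc a₀ * ((e : G)⁻¹ * d) = (e : G)⁻¹ * (e * a₀ * (e : G)⁻¹) * d := by group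
          _ = (e : G)⁻¹ * (d * a₀ * (d : G)⁻¹) * d := by rw [h3]
          _ = _ := by group
      have h4 := hfpf a₀ ha₀ ha₀1 _ ((commutator G).mul_mem ((commutator G).inv_mem e.2) d.2) h2
      apply Subtype.ext
      exact (inv_mul_eq_one.1 h4).symm
    have hsurj := Finite.injective_iff_surjective.1 hinj
    obtain ⟨d, hd⟩ := hsurj ⟨u * a₀ * u⁻¹ * a₀⁻¹, hcomm _ _⟩
    have hd' : (d : G) * a₀ * (d : G)⁻¹ = u * a₀ * u⁻¹ :=
      mul_right_cancel (congrArg Subtype.val hd)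
    have hcP : (d : G)⁻¹ * u ∈ P := P.mul_mem (P.inv_mem (hDP d.2)) hu
    have hca : a₀ * ((d : G)⁻¹ * u) = ((d : G)⁻¹ * u) * a₀ := by
      calc a₀ * ((d : G)⁻¹ * u) = (d : G)⁻¹ * (d * a₀ * (d : G)⁻¹) * u := by group
        _ = (d : G)⁻¹ * (u * a₀ * u⁻¹) * u := by rw [hd']
        _ = _ := by group
    have hcA : (d : G)⁻¹ * u ∈ Subgroup.centralizer (A : Set G) := by
      rw [Subgroup.mem_centralizer_iff]
      intro b hb
      have c1 : Commute a₀ ((d : G)⁻¹ * u) := hca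
      have c2 : Commute a₀ b := hab a₀ ha₀ b hb
      have he := (((c1.mul_right c2).mul_right c1.inv_right).mul_right c2.inv_right).eq
      have h5 := hfpf a₀ ha₀ ha₀1 _ (hcomm _ b) he
      calc b * ((d : G)⁻¹ * u)
          = (((d : G)⁻¹ * u) * b * ((d : G)⁻¹ * u)⁻¹ * b⁻¹)⁻¹ * (((d : G)⁻¹ * u) * b) := by group
        _ = _ := by rw [h5, inv_one, one_mul]
    have : u = d * ((d : G)⁻¹ * u) := by group
    rw [this, sup_comm]
    exact Subgroup.mul_mem_sup d.2 ⟨hcP, hcA⟩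

end Cfsg.Agent.Lib.H83MUDec
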