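import Mathlib
import Cfsg.Prelude.Def_Blocks
import Cfsg.Agent.Lib.H83MUDefs
import Cfsg.Agent.Lib.Helper81Orth2
import Cfsg.Agent.Lib.Helper83Char

set_option autoImplicit false

/-!
# Project 4756 (MU), piece Div
-/

namespace Cfsg.Agent.Lib.H83MUDiv

open Cfsg.Agent.Lib.H83MUDefs

theorem card_dvd {G : Type*} [Group G] [Finite G] (χ : Cfsg.IrrCharacter G) (Q : Subgroup G)
    (hv : ∀ u ∈ Q, u ≠ 1 → (χ : G → ℂ) u = 0) : Nat.card Q ∣ Cfsg.charDegree (χ : G → ℂ) := by
  classical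
  have := Fintype.ofFinite G
  have : Fintype Q := Fintype.ofFinite Q
  obtain ⟨n, hn⟩ := Cfsg.Agent.Lib.Helper81Orth2.sum_subgroup χ Q
  rw [Finset.sum_eq_single (1 : Q) (fun u _ hu => hv u u.2 (fun hc => hu (Subtype.ext hc)))
    (fun h => absurd (Finset.mem_univ _) h)] at hn
  rw [Subgroup.coe_one, ← Cfsg.Agent.Lib.Helper83Char.charDegree_cast χ.2] at hn
  exact ⟨n, by exact_mod_cast hn⟩

theorem index_dvd {G : Type*} [Group G] [Finite G] (p : ℕ) [Fact p.Prime] (P : Sylow p G)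
    (χ : Cfsg.IrrCharacter G) (hv : Van1 p χ) :
    (P : Subgroup G).index ∣ Cfsg.charDegree (χ : G → ℂ) := by
  classical
  have hd0 : Cfsg.charDegree (χ : G → ℂ) ≠ 0 := by
    intro h0
    have h1 := Cfsg.Agent.Lib.Helper83Char.charDegree_cast χ.2
    rw [h0] at h1
    exact Cfsg.Agent.Lib.Helper83Char.irr_one_ne_zero χ.2 (by simpa using h1.symm)
  have hi0 : (P : Subgroup G).index ≠ 0 := Subgroup.index_ne_zero_of_finite
  rw [← Nat.factorization_prime_le_iff_dvd hi0 hd0]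
  intro q hq
  by_cases hqp : q = p
  · subst hqp
    rw [Nat.factorization_eq_zero_of_not_dvd P.not_dvd_index]
    exact Nat.zero_le _
  · have : Fact q.Prime := ⟨hq⟩
    let Q : Sylow q G := default
    have h1 : Nat.card Q ∣ Cfsg.charDegree (χ : G → ℂ) := by
      apply card_dvd χ (Q : Subgroup G)
      intro u hu hu1
      obtain ⟨k, hk⟩ := (IsPGroup.iff_orderOf.mp Q.2) ⟨u, hu⟩
      rw [Subgroup.orderOf_mk] at hk
      exact hv q k u hq hqp hu1 hk
    rw [Sylow.card_eq_multiplicity, hq.pow_dvd_iff_le_factorization hd0] at h1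
    refine le_trans ?_ h1
    exact (Nat.factorization_le_iff_dvd hi0 Nat.card_pos.ne').mpr (Subgroup.index_dvd_card _) q

end Cfsg.Agent.Lib.H83MUDiv
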