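import Mathlib
import Cfsg.Agent.Lib.H83MUDefs

set_option autoImplicit false

/-!
# Project 4756 (MU), piece Fpf (PURE MATHLIB)
-/

namespace Cfsg.Agent.Lib.H83MUFpf

open Cfsg.Agent.Lib.H83MUDefs

theorem fpf {G : Type*} [Group G] [Finite G] (p : ℕ) [Fact p.Prime]
    (hG' : IsPGroup p (commutator G)) (hcam : CamP p G) (A : Subgroup G)
    (hA : (Nat.card A).Coprime p) :
    ∀ a ∈ A, a ≠ 1 → ∀ d ∈ commutator G, a * d = d * a → d = 1 := by
  intro a haA ha1 d hd hcomm
  have hp : p.Prime := Fact.out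
  have ho1 : orderOf a ≠ 1 := fun h => ha1 (orderOf_eq_one_iff.1 h)
  have ho0 : orderOf a ≠ 0 := (orderOf_pos a).ne'
  set q := (orderOf a).minFac with hq
  have hqp : q.Prime := Nat.minFac_prime ho1
  have hqd : q ∣ orderOf a := Nat.minFac_dvd _
  set a' := a ^ (orderOf a / q) with ha'
  have hoa' : orderOf a' = q := orderOf_pow_orderOf_div ho0 hqd
  have ha'1 : a' ≠ 1 := by
    intro h
    rw [h, orderOf_one] at hoa'
    exact hqp.one_lt.ne hoa'
  have hc : Commute d a' := by
    have : Commute a d := hcomm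
    exact (this.pow_left _).symm
  have hqA : q ∣ Nat.card A := hqd.trans (Subgroup.orderOf_dvd_natCard A haA)
  have hqne : q ≠ p := by
    intro h
    rw [h] at hqA
    have := Nat.Coprime.eq_one_of_dvd hA.symm hqA
    exact hp.one_lt.ne' this
  have hconj := hcam q 1 a' hqp hqne ha'1 (by rw [hoa', pow_one]) d hd
  have hord : orderOf (d * a') = q := by
    obtain ⟨c, hc'⟩ := isConj_iff.1 hconj
    rw [← hc', ← hoa']
    exact (MulAut.conj c).orderOf_eq a'
  obtain ⟨k, hk⟩ := IsPGroup.iff_orderOf.mp hG' ⟨d, hd⟩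
  rw [Subgroup.orderOf_mk] at hk
  have hcop : Nat.Coprime (orderOf d) (orderOf a') := by
    rw [hk, hoa']
    exact Nat.Coprime.pow_left _ ((Nat.coprime_primes hp hqp).mpr hqne.symm)
  have h1 := hc.orderOf_mul_eq_mul_orderOf_of_coprime hcop
  rw [hord, hoa'] at h1
  have h2 : orderOf d = 1 := by
    have : 1 * q = orderOf d * q := by rw [one_mul]; exact h1
    exact (Nat.eq_of_mul_eq_mul_right hqp.pos this).symm
  exact orderOf_eq_one_iff.1 h2

end Cfsg.Agent.Lib.H83MUFpf
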