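import Mathlib
import Cfsg.Agent.Lib.H83MUDefs
import Cfsg.Agent.Lib.Helper4Char2
import Cfsg.Agent.Lib.Helper82Linear

set_option autoImplicit false

/-!
# Project 4756 (MU), piece GP: `G'` is a `p`-group
-/

namespace Cfsg.Agent.Lib.H83MUGP

open Cfsg.Agent.Lib.H83MUDefs

theorem commutator_pgroup {G : Type*} [Group G] [Finite G] (p : ℕ) [Fact p.Prime]
    (h : VanP p G) : IsPGroup p (commutator G) := by
  classical
  have := Fintype.ofFinite G
  have hp : p.Prime := Fact.out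
  by_contra hcon
  have hex : ∃ q : ℕ, q.Prime ∧ q ≠ p ∧ q ∣ Nat.card (commutator G) := by
    by_contra hno
    push Not at hno
    apply hcon
    rw [IsPGroup.iff_card]
    refine ⟨_, Nat.eq_prime_pow_of_unique_prime_dvd Nat.card_pos.ne' ?_⟩
    intro q hq hqd
    by_contra hne
    exact hno q hq hne hqd
  obtain ⟨q, hq, hqp, hqd⟩ := hex
  have : Fact q.Prime := ⟨hq⟩
  obtain ⟨g, hg⟩ := exists_prime_orderOf_dvd_card' q hqd
  have hg1 : (g : G) ≠ 1 := by
    intro hc
    have : g = 1 := Subtype.ext hc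
    rw [this, orderOf_one] at hg
    exact hq.one_lt.ne hg
  have hgo : orderOf (g : G) = q ^ 1 := by rw [Subgroup.orderOf_coe, hg, pow_one]
  have hsum := Cfsg.Agent.Lib.Helper4Char2.sum_degree_mul (g : G)
  rw [if_neg hg1] at hsum
  have hterm : ∀ χ : Cfsg.IrrCharacter G, (χ : G → ℂ) 1 * (χ : G → ℂ) (g : G)
      = if (χ : G → ℂ) 1 = 1 then 1 else 0 := by
    intro χ
    split_ifs with h1
    · rw [h1, Cfsg.Agent.Lib.Helper82Linear.irr_linear_eq_one_of_mem_commutator χ h1 g.2, one_mul]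
    · rw [h χ h1 q 1 g hq hqp hg1 hgo, mul_zero]
  simp only [hterm] at hsum
  rw [Finset.sum_boole] at hsum
  have hpos : 0 < (Finset.univ.filter
      (fun χ : Cfsg.IrrCharacter G => (χ : G → ℂ) 1 = 1)).card := by
    apply Finset.card_pos.mpr
    exact ⟨Cfsg.Agent.Lib.Helper82Linear.irrOne G, by simp [Cfsg.Agent.Lib.Helper82Linear.irrOne]⟩
  have : ((Finset.univ.filter
      (fun χ : Cfsg.IrrCharacter G => (χ : G → ℂ) 1 = 1)).card : ℂ) ≠ 0 := by
    exact_mod_cast hpos.ne'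
  exact this hsum

end Cfsg.Agent.Lib.H83MUGP
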