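import Mathlib

set_option autoImplicit false

/-!
# Project 4756 (MU), piece Ineq (PURE MATHLIB)
-/

namespace Cfsg.Agent.Lib.H83MUIneq

theorem card_eq_one {G : Type*} [Group G] [Finite G] (p r : ℕ) [Fact p.Prime] [Fact r.Prime]
    (hpr : p ≠ r) (P : Sylow p G) (R : Sylow r G)
    (hP : (P : Subgroup G).index ^ 2 ≤ Nat.card G) (hR : (R : Subgroup G).index ^ 2 ≤ Nat.card G) :
    Nat.card G = 1 := by
  have hp : p.Prime := Fact.out
  have hr : r.Prime := Fact.out
  obtain ⟨k, hk⟩ := IsPGroup.iff_card.mp P.2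
  obtain ⟨l, hl⟩ := IsPGroup.iff_card.mp R.2
  have h1 := (P : Subgroup G).card_mul_index
  have h2 := (R : Subgroup G).card_mul_index
  have hcop : Nat.Coprime (Nat.card P) (Nat.card R) := by
    rw [hk, hl]
    exact Nat.Coprime.pow _ _ ((Nat.coprime_primes hp hr).mpr hpr)
  have hiP : 0 < (P : Subgroup G).index := Nat.pos_of_ne_zero Subgroup.index_ne_zero_of_finite
  have hiR : 0 < (R : Subgroup G).index := Nat.pos_of_ne_zero Subgroup.index_ne_zero_of_finite
  have hb : Nat.card R ≤ (P : Subgroup G).index := by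
    apply Nat.le_of_dvd hiP
    apply hcop.symm.dvd_of_dvd_mul_left
    rw [h1, ← h2]
    exact dvd_mul_right _ _
  have ha : Nat.card P ≤ (R : Subgroup G).index := by
    apply Nat.le_of_dvd hiR
    apply hcop.dvd_of_dvd_mul_left
    rw [h2, ← h1]
    exact dvd_mul_right _ _
  have hP' : (P : Subgroup G).index ≤ Nat.card P := by
    rw [← h1, pow_two] at hP
    exact Nat.le_of_mul_le_mul_right hP hiP
  have hR' : (R : Subgroup G).index ≤ Nat.card R := by
    rw [← h2, pow_two] at hR
    exact Nat.le_of_mul_le_mul_right hR hiR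
  have hab : Nat.card P = Nat.card R := by omega
  have ha1 : Nat.card P = 1 := by
    rw [← hab] at hcop
    exact (Nat.coprime_self _).1 hcop
  have : (P : Subgroup G).index = 1 := by omega
  rw [← h1, ha1, this]

end Cfsg.Agent.Lib.H83MUIneq
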