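import Mathlib

set_option autoImplicit false

/-!
# Project 4756 (MU), piece NotP (PURE MATHLIB)
-/

namespace Cfsg.Agent.Lib.H83MUNotP

theorem prime_eq {G : Type*} [Group G] (p : ℕ) (hp : p.Prime) (h : IsPGroup p G) (x : G)
    (hx : x ≠ 1) (q a : ℕ) (hq : q.Prime) (ho : orderOf x = q ^ a) : q = p := by
  have : Fact p.Prime := ⟨hp⟩
  obtain ⟨k, hk⟩ := IsPGroup.iff_orderOf.mp h x
  have ha : a ≠ 0 := by
    intro h0
    rw [h0, pow_zero, orderOf_eq_one_iff] at ho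
    exact hx ho
  have h1 : q ∣ p ^ k := by
    rw [← hk, ho]
    exact dvd_pow_self q ha
  exact (Nat.prime_dvd_prime_iff_eq hq hp).mp (hq.dvd_of_dvd_pow h1)

/-- In a `p`-group there are no two non-identity elements of prime power orders for different primes. -/
theorem pgroup_false {G : Type*} [Group G] (p : ℕ) (hp : p.Prime) (h : IsPGroup p G) (x y : G)
    (hx : x ≠ 1) (hy : y ≠ 1)
    (hxy : ∃ p q a b : ℕ, p.Prime ∧ q.Prime ∧ p ≠ q ∧ orderOf x = p ^ a ∧ orderOf y = q ^ b) :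
    False := by
  obtain ⟨p₁, q, a, b, hp₁, hq, hne, hox, hoy⟩ := hxy
  apply hne
  rw [prime_eq p hp h x hx p₁ a hp₁ hox, prime_eq p hp h y hy q b hq hoy]

/-- `P` a normal subgroup which is a `p`-group. -/
theorem not_mem {G : Type*} [Group G] (p : ℕ) (hp : p.Prime) (P : Subgroup G) [P.Normal]
    (hP : IsPGroup p P) (x y : G) (hx : x ≠ 1) (hy : y ≠ 1)
    (hxy : ∃ p q a b : ℕ, p.Prime ∧ q.Prime ∧ p ≠ q ∧ orderOf x = p ^ a ∧ orderOf y = q ^ b) :
    x * y ∉ P ∧ (x ∉ P ∨ y ∉ P) := by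
  have hnot : ¬ (x ∈ P ∧ y ∈ P) := by
    rintro ⟨hxP, hyP⟩
    apply pgroup_false p hp hP (⟨x, hxP⟩ : P) ⟨y, hyP⟩ (fun h => hx (congrArg Subtype.val h))
      (fun h => hy (congrArg Subtype.val h))
    simpa only [Subgroup.orderOf_mk] using hxy
  refine ⟨?_, ?_⟩
  · intro hmul
    by_cases hxP : x ∈ P
    · exact hnot ⟨hxP, (P.mul_mem_cancel_left hxP).1 hmul⟩
    · apply hxP
      obtain ⟨p₁, q, a, b, hp₁, hq, hne, hox, hoy⟩ := hxy
      have h1 : (QuotientGroup.mk' P x) = (QuotientGroup.mk' P y)⁻¹ := by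
        apply eq_inv_of_mul_eq_one_left
        rw [← map_mul]
        exact (QuotientGroup.eq_one_iff _).2 hmul
      have h2 : orderOf (QuotientGroup.mk' P x) ∣ p₁ ^ a := hox ▸ orderOf_map_dvd _ x
      have h3 : orderOf (QuotientGroup.mk' P x) ∣ q ^ b := by
        rw [h1, orderOf_inv]
        exact hoy ▸ orderOf_map_dvd _ y
      have hcop : Nat.Coprime (p₁ ^ a) (q ^ b) := Nat.Coprime.pow _ _ ((Nat.coprime_primes hp₁ hq).mpr hne)
      have h4 : orderOf (QuotientGroup.mk' P x) = 1 := Nat.eq_one_of_dvd_coprimes hcop h2 h3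
      rw [orderOf_eq_one_iff] at h4
      exact (QuotientGroup.eq_one_iff _).1 h4
  · by_contra hcon
    push Not at hcon
    exact hnot hcon

end Cfsg.Agent.Lib.H83MUNotP
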