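import Mathlib

set_option autoImplicit false

/-!
# Project 4756 (MU), piece Quo (PURE MATHLIB)
-/

namespace Cfsg.Agent.Lib.H83MUQuo

open scoped commutatorElement

/-- `G = A C D` with `D` normal, `A`, `C` abelian and commuting elementwise: `G' ≤ D`. -/
theorem commutator_le {G : Type*} [Group G] (A C D P : Subgroup G) [D.Normal]
    (hAP : A ⊔ P = ⊤) (hCD : C ⊔ D = P) (hA : ∀ a ∈ A, ∀ b ∈ A, a * b = b * a)
    (hC : ∀ a ∈ C, ∀ b ∈ C, a * b = b * a) (hCA : ∀ c ∈ C, ∀ a ∈ A, a * c = c * a) :
    commutator G ≤ D := by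
  have htop : A ⊔ (C ⊔ D) = ⊤ := by rw [hCD, hAP]
  have hD1 : ∀ d ∈ D, QuotientGroup.mk' D d = 1 := fun d hd => (QuotientGroup.eq_one_iff d).2 hd
  have key : ∀ x : G, (∀ a ∈ A, a * x = x * a) → (∀ c ∈ C, c * x = x * c) →
      ∀ g : G, QuotientGroup.mk' D g * QuotientGroup.mk' D x =
        QuotientGroup.mk' D x * QuotientGroup.mk' D g := by
    intro x h1 h2
    have : (⊤ : Subgroup G) ≤
        (Subgroup.centralizer {QuotientGroup.mk' D x}).comap (QuotientGroup.mk' D) := by
      rw [← htop]
      refine sup_le ?_ (sup_le ?_ ?_)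
      · intro a ha
        rw [Subgroup.mem_comap, Subgroup.mem_centralizer_singleton_iff, ← map_mul, ← map_mul,
          h1 a ha]
      · intro c hc
        rw [Subgroup.mem_comap, Subgroup.mem_centralizer_singleton_iff, ← map_mul, ← map_mul,
          h2 c hc]
      · intro d hd
        rw [Subgroup.mem_comap, Subgroup.mem_centralizer_singleton_iff, hD1 d hd, one_mul, mul_one]
    intro g
    have h3 := this (Subgroup.mem_top g)
    rw [Subgroup.mem_comap, Subgroup.mem_centralizer_singleton_iff] at h3
    exact h3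
  have hall : (⊤ : Subgroup G) ≤ (Subgroup.center (G ⧸ D)).comap (QuotientGroup.mk' D) := by
    rw [← htop]
    refine sup_le ?_ (sup_le ?_ ?_)
    · intro a ha
      rw [Subgroup.mem_comap, Subgroup.mem_center_iff]
      intro y
      obtain ⟨g, rfl⟩ := QuotientGroup.mk'_surjective D y
      exact key a (fun a' ha' => hA a' ha' a ha) (fun c hc => (hCA c hc a ha).symm) g
    · intro c hc
      rw [Subgroup.mem_comap, Subgroup.mem_center_iff]
      intro y
      obtain ⟨g, rfl⟩ := QuotientGroup.mk'_surjective D y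
      exact key c (fun a ha => hCA c hc a ha) (fun c' hc' => hC c' hc' c hc) g
    · intro d hd
      rw [Subgroup.mem_comap, hD1 d hd]
      exact Subgroup.one_mem _
  rw [commutator_def, Subgroup.commutator_le]
  intro g₁ _ g₂ _
  rw [← QuotientGroup.eq_one_iff]
  show QuotientGroup.mk' D ⁅g₁, g₂⁆ = 1
  rw [map_commutatorElement, commutatorElement_eq_one_iff_mul_comm]
  have h := hall (Subgroup.mem_top g₂)
  rw [Subgroup.mem_comap, Subgroup.mem_center_iff] at h
  exact h _

/-- If `g` acts fixed point freely on the normal subgroup `D ≥ G'` then `|C_G(g)| ≤ |G : G'|`. -/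
theorem card_centralizer_le {G : Type*} [Group G] [Finite G] (D : Subgroup G) [D.Normal]
    (hD : commutator G ≤ D) (g : G) (hg : ∀ d ∈ D, g * d = d * g → d = 1) :
    Nat.card (Subgroup.centralizer ({g} : Set G)) ≤ (commutator G).index := by
  have hinj : Function.Injective
      (fun x : Subgroup.centralizer ({g} : Set G) => (QuotientGroup.mk (x : G) : G ⧸ D)) := by
    intro x y hxy
    have h1 : (x : G)⁻¹ * y ∈ D := QuotientGroup.eq.1 hxy
    have hx := Subgroup.mem_centralizer_singleton_iff.1 x.2
    have hy := Subgroup.mem_centralizer_singleton_iff.1 y.2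
    have c1 : Commute g (x : G) := hx.symm
    have c2 : Commute g (y : G) := hy.symm
    have h2 : g * ((x : G)⁻¹ * y) = ((x : G)⁻¹ * y) * g := (c1.inv_right.mul_right c2).eq
    exact Subtype.ext (inv_mul_eq_one.1 (hg _ h1 h2))
  calc Nat.card (Subgroup.centralizer ({g} : Set G)) ≤ Nat.card (G ⧸ D) :=
        Nat.card_le_card_of_injective _ hinj
    _ = D.index := (Subgroup.index_eq_card D).symm
    _ ≤ (commutator G).index :=
        Nat.le_of_dvd (Nat.pos_of_ne_zero Subgroup.index_ne_zero_of_finite)
          (Subgroup.index_dvd_of_le hD)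

end Cfsg.Agent.Lib.H83MUQuo
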