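import Mathlib
import Cfsg.Agent.Lib.H83MUDefs
import Cfsg.Agent.Lib.Helper82Schur
import Cfsg.Agent.Lib.Helper83Char
import Cfsg.Agent.Lib.Helper4Char

set_option autoImplicit false

/-!
# Project 4756 (MU), piece Van
-/

namespace Cfsg.Agent.Lib.H83MUVan

open Cfsg.Agent.Lib.H83MUDefs

theorem orderOf_conj' {G : Type*} [Group G] (g y : G) : orderOf (g * y * g⁻¹) = orderOf y := by
  have := (MulAut.conj g).orderOf_eq y
  simpa [MulAut.conj_apply] using this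

theorem van {G : Type*} [Group G] [Finite G] (h : Hyp G) (χ : Cfsg.IrrCharacter G)
    (hχ : (χ : G → ℂ) 1 ≠ 1) (x y : G) (hx : x ≠ 1) (hy : y ≠ 1)
    (hxy : ∃ p q a b : ℕ, p.Prime ∧ q.Prime ∧ p ≠ q ∧ orderOf x = p ^ a ∧ orderOf y = q ^ b) :
    (χ : G → ℂ) x * (χ : G → ℂ) y = 0 := by
  classical
  have := Fintype.ofFinite G
  have hcl := Cfsg.Agent.Lib.Helper4Char.IsIrrCharacter.isClassFunction χ.2
  have h1 : ∀ g : G, (χ : G → ℂ) (x * (g * y * g⁻¹)) = (χ : G → ℂ) x * (χ : G → ℂ) y := by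
    intro g
    obtain ⟨p, q, a, b, hp, hq, hpq, hxo, hyo⟩ := hxy
    rw [h x (g * y * g⁻¹) χ hx (by
      intro hc
      apply hy
      have : y = g⁻¹ * (g * y * g⁻¹) * g := by group
      rw [this, hc]; group) ⟨p, q, a, b, hp, hq, hpq, hxo, by rw [orderOf_conj', hyo]⟩]
    congr 1
    exact hcl y g
  have h2 := Cfsg.Agent.Lib.Helper82Schur.irr_sum_mul_conj χ x y
  simp only [h1, Finset.sum_const, Finset.card_univ, nsmul_eq_mul] at h2
  rw [← Nat.card_eq_fintype_card] at h2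
  have h0 : (χ : G → ℂ) 1 ≠ 0 := Cfsg.Agent.Lib.Helper83Char.irr_one_ne_zero χ.2
  have hc : (Nat.card G : ℂ) ≠ 0 := by exact_mod_cast Nat.card_pos.ne'
  rw [eq_div_iff h0] at h2
  have h3 : (Nat.card G : ℂ) * (((χ : G → ℂ) x * (χ : G → ℂ) y) * ((χ : G → ℂ) 1 - 1)) = 0 := by
    linear_combination h2
  rcases mul_eq_zero.mp h3 with h4 | h4
  · exact absurd h4 hc
  rcases mul_eq_zero.mp h4 with h5 | h5
  · exact h5
  · exact absurd (sub_eq_zero.mp h5) hχ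

theorem loc {G : Type*} [Group G] [Finite G] (h : Hyp G) (χ : Cfsg.IrrCharacter G)
    (hχ : (χ : G → ℂ) 1 ≠ 1) : ∃ p : ℕ, p.Prime ∧ Van1 p χ := by
  by_cases hall : ∃ (p a : ℕ) (x : G), p.Prime ∧ x ≠ 1 ∧ orderOf x = p ^ a ∧ (χ : G → ℂ) x ≠ 0
  · obtain ⟨p, a, x, hp, hx, hxo, hne⟩ := hall
    refine ⟨p, hp, ?_⟩
    intro q b y hq hqp hy hyo
    have := van h χ hχ x y hx hy ⟨p, q, a, b, hp, hq, hqp.symm, hxo, hyo⟩
    exact (mul_eq_zero.mp this).resolve_left hne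
  · push Not at hall
    refine ⟨2, Nat.prime_two, ?_⟩
    intro q b y hq _ hy hyo
    exact hall q b y hq hy hyo

end Cfsg.Agent.Lib.H83MUVan
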