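import Mathlib
import Cfsg.Prelude.Def_Blocks
import Cfsg.Agent.Lib.H83MUDefs
import Cfsg.Agent.Lib.H83MUVan
import Cfsg.Agent.Lib.H83MUDiv
import Cfsg.Agent.Lib.H83MUIneq
import Cfsg.Agent.Lib.Helper4Char2

set_option autoImplicit false

/-!
# Project 4756 (MU), piece Unif
-/

namespace Cfsg.Agent.Lib.H83MUUnif

open Cfsg.Agent.Lib.H83MUDefs

theorem degree_sq_le {G : Type*} [Group G] [Finite G] (χ : Cfsg.IrrCharacter G) :
    Cfsg.charDegree (χ : G → ℂ) ^ 2 ≤ Nat.card G := by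
  classical
  have := Fintype.ofFinite G
  have h := Cfsg.Agent.Lib.Helper4Char2.sum_degree_sq (G := G)
  have h2 : ∑ ψ : Cfsg.IrrCharacter G, (ψ : G → ℂ) 1 ^ 2
      = ((∑ ψ : Cfsg.IrrCharacter G, Cfsg.charDegree (ψ : G → ℂ) ^ 2 : ℕ) : ℂ) := by
    push_cast
    refine Finset.sum_congr rfl fun ψ _ => ?_
    rw [Cfsg.Agent.Lib.Helper83Char.charDegree_cast ψ.2]
  rw [h2] at h
  have h3 : ∑ ψ : Cfsg.IrrCharacter G, Cfsg.charDegree (ψ : G → ℂ) ^ 2 = Nat.card G := by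
    exact_mod_cast h
  rw [← h3]
  exact Finset.single_le_sum (f := fun ψ : Cfsg.IrrCharacter G => Cfsg.charDegree (ψ : G → ℂ) ^ 2)
    (fun _ _ => Nat.zero_le _) (Finset.mem_univ χ)

theorem degree_ne_zero {G : Type*} [Group G] [Finite G] (χ : Cfsg.IrrCharacter G) :
    Cfsg.charDegree (χ : G → ℂ) ≠ 0 := by
  intro h0
  have h1 := Cfsg.Agent.Lib.Helper83Char.charDegree_cast χ.2
  rw [h0] at h1
  exact Cfsg.Agent.Lib.Helper83Char.irr_one_ne_zero χ.2 (by simpa using h1.symm)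

theorem unif {G : Type*} [Group G] [Finite G] (h : Hyp G)
    (hna : ∃ χ : Cfsg.IrrCharacter G, (χ : G → ℂ) 1 ≠ 1) : ∃ p : ℕ, p.Prime ∧ VanP p G := by
  obtain ⟨χ₀, hχ₀⟩ := hna
  obtain ⟨p, hp, hv⟩ := Cfsg.Agent.Lib.H83MUVan.loc h χ₀ hχ₀
  refine ⟨p, hp, ?_⟩
  intro ψ hψ
  obtain ⟨r, hr, hw⟩ := Cfsg.Agent.Lib.H83MUVan.loc h ψ hψ
  by_cases hrp : r = p
  · rw [← hrp]; exact hw
  exfalso
  have : Fact p.Prime := ⟨hp⟩
  have : Fact r.Prime := ⟨hr⟩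
  let P : Sylow p G := default
  let R : Sylow r G := default
  have key : ∀ (n : ℕ) (χ : Cfsg.IrrCharacter G), n ∣ Cfsg.charDegree (χ : G → ℂ) →
      n ^ 2 ≤ Nat.card G := by
    intro n χ hd
    exact le_trans (Nat.pow_le_pow_left (Nat.le_of_dvd (Nat.pos_of_ne_zero (degree_ne_zero χ)) hd) 2)
      (degree_sq_le χ)
  have h1 := Cfsg.Agent.Lib.H83MUIneq.card_eq_one p r (fun hc => hrp hc.symm) P R
    (key _ χ₀ (Cfsg.Agent.Lib.H83MUDiv.index_dvd p P χ₀ hv))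
    (key _ ψ (Cfsg.Agent.Lib.H83MUDiv.index_dvd r R ψ hw))
  have h2 := degree_sq_le χ₀
  rw [h1] at h2
  have h3 : Cfsg.charDegree (χ₀ : G → ℂ) = 1 := by
    have h4 := degree_ne_zero χ₀
    nlinarith [Nat.pos_of_ne_zero h4]
  apply hχ₀
  rw [← Cfsg.Agent.Lib.Helper83Char.charDegree_cast χ₀.2, h3]
  simp

end Cfsg.Agent.Lib.H83MUUnif
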