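import Mathlib
import Cfsg.Agent.Lib.H83MUDefs
import Cfsg.Agent.Lib.H83MUVan
import Cfsg.Agent.Lib.H83MUDiv
import Cfsg.Agent.Lib.H83MUIneq
import Cfsg.Agent.Lib.H83MUUnif
import Cfsg.Agent.Lib.H83MUGP
import Cfsg.Agent.Lib.H83MUCen
import Cfsg.Agent.Lib.H83MUCam
import Cfsg.Agent.Lib.H83MUCompl
import Cfsg.Agent.Lib.H83MUFpf
import Cfsg.Agent.Lib.H83MUComm
import Cfsg.Agent.Lib.H83MUDec
import Cfsg.Agent.Lib.H83MUCyc
import Cfsg.Agent.Lib.H83MUOff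
import Cfsg.Agent.Lib.H83MUQuo
import Cfsg.Agent.Lib.H83MUNotP
import Cfsg.Agent.Lib.Helper5Abel
import Cfsg.Agent.Lib.Helper82Linear
import Cfsg.Agent.S0187

set_option autoImplicit false

/-!
# Project 4756 (MU), final assembly
-/

namespace Cfsg.Agent.Lib.H83MUMain

open Cfsg.Agent.Lib.H83MUDefs
open scoped commutatorElement

theorem fwd {G : Type*} [Group G] [Finite G] (h : Hyp G) :
    (∃ p : ℕ, p.Prime ∧ IsPGroup p G) ∨ IsMulCommutative G ∨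
      ∃ (p : ℕ) (_ : Fact p.Prime) (P : Sylow p G) (A : Subgroup G), (P : Subgroup G).Normal ∧
        IsCyclic ↥A ∧ A ≠ ⊥ ∧ (Nat.card ↥A).Coprime p ∧ A ⊔ (P : Subgroup G) = ⊤ ∧
        IsMulCommutative ↥((P : Subgroup G) ⊓ Subgroup.centralizer (A : Set G)) ∧
        (⁅A, (P : Subgroup G)⁆).Normal ∧
        ((P : Subgroup G) ⊓ Subgroup.centralizer (A : Set G)) ⊔ ⁅A, (P : Subgroup G)⁆
          = (P : Subgroup G) ∧
        ((P : Subgroup G) ⊓ Subgroup.centralizer (A : Set G)) ⊓ ⁅A, (P : Subgroup G)⁆ = ⊥ ∧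
        ∀ a ∈ A, a ≠ 1 → ∀ d ∈ ⁅A, (P : Subgroup G)⁆, a * d = d * a → d = 1 := by
  by_cases hc : ∀ a b : G, a * b = b * a
  · right; left
    exact ⟨⟨hc⟩⟩
  have hna : ∃ χ : Cfsg.IrrCharacter G, (χ : G → ℂ) 1 ≠ 1 := by
    by_contra hcon
    push Not at hcon
    exact hc ((Cfsg.Agent.S0187.result).mpr hcon)
  obtain ⟨p, hp, hv⟩ := Cfsg.Agent.Lib.H83MUUnif.unif h hna
  have hpF : Fact p.Prime := ⟨hp⟩
  by_cases hpg : IsPGroup p G
  · left
    exact ⟨p, hp, hpg⟩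
  right; right
  have hG' := Cfsg.Agent.Lib.H83MUGP.commutator_pgroup p hv
  have hcam : CamP p G := fun q b a hq hqp ha hord =>
    Cfsg.Agent.Lib.H83MUCam.cam a (Cfsg.Agent.Lib.H83MUCen.card_centralizer a
      (fun χ hχ => hv χ hχ q b a hq hqp ha hord))
  let P : Sylow p G := default
  obtain ⟨hPn, hDP, A, hA1, hcop, hAP, -, hab⟩ := Cfsg.Agent.Lib.H83MUCompl.compl p hG' hpg P
  have hfpf := Cfsg.Agent.Lib.H83MUFpf.fpf p hG' hcam A hcop
  have hcomm := Cfsg.Agent.Lib.H83MUComm.comm_eq p hcam P hPn A hA1 hcop hAP hab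
  obtain ⟨h1, h2, h3⟩ := Cfsg.Agent.Lib.H83MUDec.dec (P : Subgroup G) A hDP hA1 hab hfpf
  have hD1 : commutator G ≠ ⊥ := by
    intro hbot
    apply hc
    intro a b
    have hm : ⁅a, b⁆ ∈ commutator G :=
      Subgroup.commutator_mem_commutator (Subgroup.mem_top a) (Subgroup.mem_top b)
    rw [hbot, Subgroup.mem_bot] at hm
    exact commutatorElement_eq_one_iff_mul_comm.mp hm
  have hcyc := Cfsg.Agent.Lib.H83MUCyc.cyclic_of_fpf A (commutator G) hD1 hab hfpf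
  refine ⟨p, hpF, P, A, hPn, hcyc, hA1, hcop, hAP, h1, ?_, ?_, ?_, ?_⟩
  · rw [hcomm]; infer_instance
  · rw [hcomm]; exact h2
  · rw [hcomm]; exact h3
  · rw [hcomm]; exact hfpf

theorem bwd {G : Type*} [Group G] [Finite G]
    (h : (∃ p : ℕ, p.Prime ∧ IsPGroup p G) ∨ IsMulCommutative G ∨
      ∃ (p : ℕ) (_ : Fact p.Prime) (P : Sylow p G) (A : Subgroup G), (P : Subgroup G).Normal ∧
        IsCyclic ↥A ∧ A ≠ ⊥ ∧ (Nat.card ↥A).Coprime p ∧ A ⊔ (P : Subgroup G) = ⊤ ∧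
        IsMulCommutative ↥((P : Subgroup G) ⊓ Subgroup.centralizer (A : Set G)) ∧
        (⁅A, (P : Subgroup G)⁆).Normal ∧
        ((P : Subgroup G) ⊓ Subgroup.centralizer (A : Set G)) ⊔ ⁅A, (P : Subgroup G)⁆
          = (P : Subgroup G) ∧
        ((P : Subgroup G) ⊓ Subgroup.centralizer (A : Set G)) ⊓ ⁅A, (P : Subgroup G)⁆ = ⊥ ∧
        ∀ a ∈ A, a ≠ 1 → ∀ d ∈ ⁅A, (P : Subgroup G)⁆, a * d = d * a → d = 1) : Hyp G := by
  intro x y χ hx hy hxy
  rcases h with ⟨p, hp, hpg⟩ | hc | ⟨p, hpF, P, A, hPn, hcyc, hA1, hcop, hAP, hCc, hDn, hsup,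
    hinf, hfpf⟩
  · exact (Cfsg.Agent.Lib.H83MUNotP.pgroup_false p hp hpg x y hx hy hxy).elim
  · exact Cfsg.Agent.Lib.Helper82Linear.irr_linear_mul χ
      (Cfsg.Agent.Lib.Helper5Abel.irr_one_of_comm χ) x y
  · by_cases hχ : (χ : G → ℂ) 1 = 1
    · exact Cfsg.Agent.Lib.Helper82Linear.irr_linear_mul χ hχ x y
    · have hoff := Cfsg.Agent.Lib.H83MUOff.fpf_off p P hPn A ⁅A, (P : Subgroup G)⁆ hcop hAP hfpf
      have hAab : ∀ a ∈ A, ∀ b ∈ A, a * b = b * a := by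
        intro a ha b hb
        let _ := IsCyclic.commGroup (α := A)
        exact congrArg Subtype.val (mul_comm (⟨a, ha⟩ : A) ⟨b, hb⟩)
      have hCab : ∀ a ∈ (P : Subgroup G) ⊓ Subgroup.centralizer (A : Set G),
          ∀ b ∈ (P : Subgroup G) ⊓ Subgroup.centralizer (A : Set G), a * b = b * a := by
        intro a ha b hb
        exact congrArg Subtype.val (hCc.is_comm.comm
          (⟨a, ha⟩ : ↥((P : Subgroup G) ⊓ Subgroup.centralizer (A : Set G))) ⟨b, hb⟩)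
      have hCA : ∀ c ∈ (P : Subgroup G) ⊓ Subgroup.centralizer (A : Set G), ∀ a ∈ A,
          a * c = c * a := by
        intro c hc a ha
        exact Subgroup.mem_centralizer_iff.mp hc.2 a ha
      have hle : commutator G ≤ ⁅A, (P : Subgroup G)⁆ :=
        Cfsg.Agent.Lib.H83MUQuo.commutator_le A _ _ (P : Subgroup G) hAP hsup hAab hCab hCA
      have hvan : ∀ g : G, g ∉ P → (χ : G → ℂ) g = 0 := fun g hg =>
        Cfsg.Agent.Lib.H83MUCen.van_of_card_le g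
          (Cfsg.Agent.Lib.H83MUQuo.card_centralizer_le _ hle g (hoff g hg)) χ hχ
      obtain ⟨h1, h2⟩ := Cfsg.Agent.Lib.H83MUNotP.not_mem p hpF.out (P : Subgroup G) P.2 x y hx hy
        hxy
      rw [hvan _ h1]
      rcases h2 with h2 | h2
      · rw [hvan _ h2, zero_mul]
      · rw [hvan _ h2, mul_zero]

end Cfsg.Agent.Lib.H83MUMain
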