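import Mathlib

set_option autoImplicit false

/-!
# Project 4756 (MU), piece Off (PURE MATHLIB)
-/

namespace Cfsg.Agent.Lib.H83MUOff

open scoped Pointwise

/-- `G = A P`, `P` a normal Sylow `p`-subgroup, `|A|` prime to `p`, `A` acts fixed point freely on
the normal subgroup `D`.  Then EVERY `g ∉ P` acts fixed point freely on `D`. -/
theorem fpf_off {G : Type*} [Group G] [Finite G] (p : ℕ) [Fact p.Prime] (P : Sylow p G)
    (hPn : (P : Subgroup G).Normal) (A D : Subgroup G) [D.Normal] (hcop : (Nat.card A).Coprime p)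
    (hAP : A ⊔ (P : Subgroup G) = ⊤)
    (hfpf : ∀ a ∈ A, a ≠ 1 → ∀ d ∈ D, a * d = d * a → d = 1) :
    ∀ g : G, g ∉ P → ∀ d ∈ D, g * d = d * g → d = 1 := by
  have hp : p.Prime := Fact.out
  obtain ⟨n, hn⟩ := IsPGroup.iff_card.mp P.2
  -- (1)
  have hdis : Disjoint A (P : Subgroup G) := by
    apply Subgroup.disjoint_of_coprime_natCard
    rw [hn]
    exact Nat.Coprime.pow_right n hcop
  have hmul : ((A : Set G) * ((P : Subgroup G) : Set G)) = Set.univ := by
    rw [← Subgroup.mul_normal, hAP]; rfl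
  have hcompl : Subgroup.IsComplement' A (P : Subgroup G) :=
    Subgroup.isComplement'_of_disjoint_and_mul_eq_univ hdis hmul
  have hidx : A.index = p ^ n := by
    rw [hcompl.symm.index_eq_card]; exact hn
  intro g hg d hd hgd
  -- (2)
  have hm1 : orderOf (QuotientGroup.mk' (P : Subgroup G) g) ≠ 1 := by
    rw [Ne, orderOf_eq_one_iff]
    intro h
    exact hg ((QuotientGroup.eq_one_iff g).1 h)
  have hq : (orderOf (QuotientGroup.mk' (P : Subgroup G) g)).minFac.Prime := Nat.minFac_prime hm1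
  set q := (orderOf (QuotientGroup.mk' (P : Subgroup G) g)).minFac with hqdef
  have hqm : q ∣ orderOf (QuotientGroup.mk' (P : Subgroup G) g) := Nat.minFac_dvd _
  have hqp : q ≠ p := by
    intro h
    apply P.not_dvd_index
    have h2 : q ∣ (P : Subgroup G).index := by
      rw [Subgroup.index_eq_card]
      exact hqm.trans (orderOf_dvd_natCard _)
    rwa [h] at h2
  obtain ⟨e, k, hk, hek⟩ := Nat.exists_eq_pow_mul_and_not_dvd (n := Nat.card G)
    Nat.card_pos.ne' q hq.ne_one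
  have hz : (g ^ k) ^ (q ^ e) = 1 := by
    rw [← pow_mul, mul_comm, ← hek, pow_card_eq_one']
  have hzP : g ^ k ∉ (P : Subgroup G) := by
    intro h
    apply hk
    have : (QuotientGroup.mk' (P : Subgroup G) g) ^ k = 1 := by
      rw [← map_pow]; exact (QuotientGroup.eq_one_iff _).2 h
    exact hqm.trans (orderOf_dvd_of_pow_eq_one this)
  have hz1 : g ^ k ≠ 1 := by
    intro h
    exact hzP (h ▸ Subgroup.one_mem _)
  -- (3)
  have hpg : IsPGroup q (Subgroup.zpowers (g ^ k)) := by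
    intro x
    refine ⟨e, ?_⟩
    obtain ⟨i, hi⟩ := Subgroup.mem_zpowers_iff.1 x.2
    apply Subtype.ext
    rw [Subgroup.coe_pow, ← hi, ← zpow_natCast, ← zpow_mul, mul_comm, zpow_mul, zpow_natCast, hz,
      one_zpow]
    rfl
  have hnd : ¬ q ∣ Nat.card (G ⧸ A) := by
    rw [← Subgroup.index_eq_card, hidx]
    intro h
    exact hqp ((Nat.prime_dvd_prime_iff_eq hq hp).1 (hq.dvd_of_dvd_pow h))
  have : Fact q.Prime := ⟨hq⟩
  obtain ⟨y, hy⟩ := hpg.nonempty_fixed_point_of_prime_not_dvd_card (G ⧸ A) hnd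
  obtain ⟨h, rfl⟩ := QuotientGroup.mk_surjective y
  have hfix := hy ⟨g ^ k, Subgroup.mem_zpowers _⟩
  have hfix' : ((g ^ k * h : G) : G ⧸ A) = (h : G ⧸ A) := hfix
  have haA : h⁻¹ * g ^ k * h ∈ A := by
    have := QuotientGroup.eq.1 hfix'.symm
    rw [← mul_assoc] at this
    exact this
  have ha1 : h⁻¹ * g ^ k * h ≠ 1 := by
    intro h1
    apply hz1
    calc g ^ k = h * (h⁻¹ * g ^ k * h) * h⁻¹ := by group
      _ = 1 := by rw [h1]; group
  -- (4)
  have c1 : Commute (g ^ k) d := (show Commute g d from hgd).pow_left k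
  have hdD : h⁻¹ * d * h ∈ D := by
    have := (inferInstance : D.Normal).conj_mem d hd h⁻¹
    simpa using this
  have hc : (h⁻¹ * g ^ k * h) * (h⁻¹ * d * h) = (h⁻¹ * d * h) * (h⁻¹ * g ^ k * h) := by
    calc (h⁻¹ * g ^ k * h) * (h⁻¹ * d * h) = h⁻¹ * (g ^ k * d) * h := by group
      _ = h⁻¹ * (d * g ^ k) * h := by rw [c1.eq]
      _ = _ := by group
  have h1 := hfpf _ haA ha1 _ hdD hc
  calc d = h * (h⁻¹ * d * h) * h⁻¹ := by group
    _ = 1 := by rw [h1]; group

end Cfsg.Agent.Lib.H83MUOff
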