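import Mathlib
import Cfsg.Prelude.Def_Characters
import Cfsg.Agent.Lib.Helper77Glaub2
import Cfsg.Agent.Lib.Helper77Glaub5

set_option autoImplicit false

/-!
# Project 4864 (RN): definitions

`RI χ` : the irreducible character `χ` is real valued.  `RC C` : the conjugacy class `C` is real.
`clHom` : the action of `MulAut G` on `ConjClasses G`.
-/

namespace Cfsg.Agent.Lib.H83RNDefs

variable {G : Type*} [Group G]

/-- real valued irreducible character -/
def RI (χ : Cfsg.IrrCharacter G) : Prop := ∀ g : G, ((χ : G → ℂ) g).im = 0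

/-- real conjugacy class -/
def RC (C : ConjClasses G) : Prop := ∀ g : G, ConjClasses.mk g = C → IsConj g g⁻¹

theorem isConj_inv_of_isConj {a b : G} (h : IsConj a b) (ha : IsConj a a⁻¹) : IsConj b b⁻¹ := by
  obtain ⟨c, hc⟩ := isConj_iff.mp h
  have h4 : IsConj a⁻¹ b⁻¹ := isConj_iff.mpr ⟨c, by rw [← hc]; group⟩
  exact h.symm.trans (ha.trans h4)

theorem RC_mk (g : G) : RC (ConjClasses.mk g) ↔ IsConj g g⁻¹ := by
  constructor
  · intro h
    exact h g rfl
  · intro h k hk
    exact isConj_inv_of_isConj (ConjClasses.mk_eq_mk_iff_isConj.mp hk).symm h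

/-- the action of automorphisms on conjugacy classes -/
def clHom : MulAut G →* Equiv.Perm (ConjClasses G) where
  toFun a :=
    { toFun := ConjClasses.map a.toMonoidHom
      invFun := ConjClasses.map (a⁻¹ : MulAut G).toMonoidHom
      left_inv := fun C => by
        obtain ⟨g, rfl⟩ := ConjClasses.exists_rep C
        change ConjClasses.mk ((a⁻¹ : MulAut G) (a g)) = ConjClasses.mk g
        simp
      right_inv := fun C => by
        obtain ⟨g, rfl⟩ := ConjClasses.exists_rep C
        change ConjClasses.mk (a ((a⁻¹ : MulAut G) g)) = ConjClasses.mk g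
        simp }
  map_one' := by
    ext C
    obtain ⟨g, rfl⟩ := ConjClasses.exists_rep C
    rfl
  map_mul' a b := by
    ext C
    obtain ⟨g, rfl⟩ := ConjClasses.exists_rep C
    rfl

theorem clHom_apply (a : MulAut G) (C : ConjClasses G) :
    clHom a C = ConjClasses.map a.toMonoidHom C := rfl

theorem clHom_mk (a : MulAut G) (g : G) :
    clHom a (ConjClasses.mk g) = ConjClasses.mk (a g) := rfl

theorem clHom_conj (x : G) : clHom (MulAut.conj x) = 1 := by
  ext C
  obtain ⟨g, rfl⟩ := ConjClasses.exists_rep C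
  rw [clHom_mk, Equiv.Perm.one_apply, ConjClasses.mk_eq_mk_iff_isConj, MulAut.conj_apply,
    isConj_comm, isConj_iff]
  exact ⟨x, rfl⟩

theorem RC_clHom (a : MulAut G) {C : ConjClasses G} (h : RC C) : RC (clHom a C) := by
  obtain ⟨g, rfl⟩ := ConjClasses.exists_rep C
  rw [clHom_mk, RC_mk]
  rw [RC_mk] at h
  have := a.toMonoidHom.map_isConj h
  simpa using this

theorem RI_permHom [Fintype G] (a : MulAut G) {χ : Cfsg.IrrCharacter G} (h : RI χ) :
    RI (Cfsg.Agent.Lib.Helper77Glaub5.permHom a χ) := by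
  intro g
  rw [Cfsg.Agent.Lib.Helper77Glaub5.permHom_apply]
  exact h _

/-- invariance of a class under an action, in terms of `clHom` -/
theorem invC_iff {S : Type*} [Group S] (φ : S →* MulAut G) (C : ConjClasses G) :
    Cfsg.Agent.Lib.Helper77Glaub2.InvC φ C ↔ ∀ s, clHom (φ s) C = C := by
  constructor
  · intro h s
    obtain ⟨g, rfl⟩ := ConjClasses.exists_rep C
    rw [clHom_mk]
    exact h s g rfl
  · intro h s g hg
    rw [← clHom_mk, hg]
    exact h s

/-- invariance of a character under an action, in terms of `permHom` -/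
theorem inv_iff [Fintype G] {S : Type*} [Group S] (φ : S →* MulAut G) (χ : Cfsg.IrrCharacter G) :
    Cfsg.Agent.Lib.Helper77Glaub.Inv φ χ.1 ↔
      ∀ s, Cfsg.Agent.Lib.Helper77Glaub5.permHom (φ s) χ = χ := by
  constructor
  · intro h s
    rw [Cfsg.Agent.Lib.Helper77Glaub5.permHom_eq_self_iff]
    exact h s
  · intro h s
    exact (Cfsg.Agent.Lib.Helper77Glaub5.permHom_eq_self_iff _ _).mp (h s)

end Cfsg.Agent.Lib.H83RNDefs
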