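import Mathlib
import Cfsg.Agent.Lib.H83RNDefs
import Cfsg.Agent.Lib.Helper4Perm

set_option autoImplicit false

/-!
# Project 4864 (RN), piece Brauer: Brauer's permutation lemma for REAL characters / REAL classes
-/

namespace Cfsg.Agent.Lib.H83RNBrauer

open Cfsg.Agent.Lib.H83RNDefs
open Module Representation
open scoped ComplexConjugate
open Cfsg.Agent.Lib.Helper4Eigen Cfsg.Agent.Lib.Helper4Char Cfsg.Agent.Lib.Helper4Char2
  Cfsg.Agent.Lib.Helper4Char3 Cfsg.Agent.Lib.Helper4Char4 Cfsg.Agent.Lib.Helper4Perm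

theorem pow_char_aux {G : Type*} [Group G] (a : MulAut G) (f : G → ℂ)
    (h : ∀ g, f (a g) = conj (f g)) (j : ℕ) (g : G) :
    f ((a ^ (2 * j)) g) = f g ∧ f ((a ^ (2 * j + 1)) g) = conj (f g) := by
  induction j with
  | zero => simp [h]
  | succ j ih =>
    have h1 : f ((a ^ (2 * (j + 1))) g) = f g := by
      have : a ^ (2 * (j + 1)) = a * a ^ (2 * j + 1) := by
        rw [← pow_succ']
        congr 1
      rw [this, MulAut.mul_apply, h, ih.2, Complex.conj_conj]
    refine ⟨h1, ?_⟩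
    rw [pow_succ', MulAut.mul_apply, h, h1]

theorem pow_conj_aux {G : Type*} [Group G] (a : MulAut G) (g : G)
    (h : IsConj (a g) g⁻¹) (j : ℕ) :
    IsConj ((a ^ (2 * j)) g) g ∧ IsConj ((a ^ (2 * j + 1)) g) g⁻¹ := by
  have hinv : IsConj (a g⁻¹) g := by
    obtain ⟨c, hc⟩ := isConj_iff.mp h
    refine isConj_iff.mpr ⟨c, ?_⟩
    rw [map_inv]
    have : (c * a g * c⁻¹)⁻¹ = g⁻¹⁻¹ := by rw [hc]
    rw [inv_inv] at this
    refine Eq.trans ?_ this
    group
  induction j with
  | zero => exact ⟨IsConj.refl _, by simpa using h⟩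
  | succ j ih =>
    have h1 : IsConj ((a ^ (2 * (j + 1))) g) g := by
      have : a ^ (2 * (j + 1)) = a * a ^ (2 * j + 1) := by
        rw [← pow_succ']
        congr 1
      rw [this, MulAut.mul_apply]
      have h2 := a.toMonoidHom.map_isConj ih.2
      exact IsConj.trans h2 hinv
    refine ⟨h1, ?_⟩
    rw [pow_succ', MulAut.mul_apply]
    have h2 := a.toMonoidHom.map_isConj h1
    exact IsConj.trans h2 h

theorem brauerReal {G : Type*} [Group G] [Finite G] (a : MulAut G) (m : ℕ) (hm : Odd m)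
    (ham : ∃ c : G, a ^ m = MulAut.conj c) :
    Nat.card {χ : Cfsg.IrrCharacter G // RI χ ∧ ∀ g, (χ : G → ℂ) (a g) = (χ : G → ℂ) g}
      = Nat.card {C : ConjClasses G // RC C ∧ clHom a C = C} := by
  have := Fintype.ofFinite G
  obtain ⟨c, hc⟩ := ham
  obtain ⟨j, rfl⟩ := hm
  have h := card_fixed_eq (G := G)
    (fun χ => ⟨fun g => conj ((χ : G → ℂ) (a g)),
      IsIrrCharacter.conj (IsIrrCharacter.comp_mulEquiv a χ.2)⟩)
    (fun C => ConjClasses.mk (a (rep C))⁻¹) (by
      intro χ C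
      simp only
      rw [← IsCharacter.apply_inv (IsIrrCharacter.isCharacter χ.2)]
      apply IsClassFunction.eq_of_isConj (IsIrrCharacter.isClassFunction χ.2)
      exact (isConj_rep_mk _).symm)
  have e1 : {χ : Cfsg.IrrCharacter G // RI χ ∧ ∀ g, (χ : G → ℂ) (a g) = (χ : G → ℂ) g} ≃
      {χ : Cfsg.IrrCharacter G // (⟨fun g => conj ((χ : G → ℂ) (a g)),
        IsIrrCharacter.conj (IsIrrCharacter.comp_mulEquiv a χ.2)⟩ : Cfsg.IrrCharacter G) = χ} := by
    apply Equiv.subtypeEquivRight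
    intro χ
    rw [Subtype.ext_iff, funext_iff]
    constructor
    · rintro ⟨h1, h2⟩ g
      change conj ((χ : G → ℂ) (a g)) = (χ : G → ℂ) g
      rw [h2, Complex.conj_eq_iff_im]
      exact h1 g
    · intro h1
      have h2 : ∀ g, (χ : G → ℂ) (a g) = conj ((χ : G → ℂ) g) := by
        intro g
        have := h1 g
        change conj ((χ : G → ℂ) (a g)) = (χ : G → ℂ) g at this
        rw [← this, Complex.conj_conj]
      have h3 : ∀ g, conj ((χ : G → ℂ) g) = (χ : G → ℂ) g := by
        intro g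
        rw [← (pow_char_aux a _ h2 j g).2, hc, MulAut.conj_apply]
        apply IsClassFunction.eq_of_isConj (IsIrrCharacter.isClassFunction χ.2)
        rw [isConj_comm, isConj_iff]
        exact ⟨c, rfl⟩
      refine ⟨fun g => Complex.conj_eq_iff_im.1 (h3 g), fun g => ?_⟩
      rw [h2, h3]
  have e2 : {C : ConjClasses G // RC C ∧ clHom a C = C} ≃
      {C : ConjClasses G // ConjClasses.mk (a (rep C))⁻¹ = C} := by
    apply Equiv.subtypeEquivRight
    intro C
    have hC : ConjClasses.mk (rep C) = C := mk_rep C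
    obtain ⟨g, hg⟩ : ∃ g, g = rep C := ⟨_, rfl⟩
    rw [← hg]
    rw [← hg] at hC
    rw [← hC, RC_mk, clHom_mk, ConjClasses.mk_eq_mk_iff_isConj, ConjClasses.mk_eq_mk_iff_isConj]
    have hinv : ∀ x y : G, IsConj x y → IsConj x⁻¹ y⁻¹ := by
      intro x y hxy
      obtain ⟨d, hd⟩ := isConj_iff.mp hxy
      exact isConj_iff.mpr ⟨d, by rw [← hd]; group⟩
    constructor
    · rintro ⟨h1, h2⟩
      exact (hinv _ _ h2).trans h1.symm
    · intro h1
      have h2 : IsConj (a g) g⁻¹ := by
        have := hinv _ _ h1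
        rwa [inv_inv] at this
      have h3 : IsConj g g⁻¹ := by
        have h4 := (pow_conj_aux a g h2 j).2
        rw [hc, MulAut.conj_apply] at h4
        refine IsConj.trans ?_ h4
        rw [isConj_iff]
        exact ⟨c, rfl⟩
      exact ⟨h3, h2.trans h3.symm⟩
  rw [Nat.card_congr e1, Nat.card_congr e2]
  exact h

end Cfsg.Agent.Lib.H83RNBrauer
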