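import Mathlib

set_option autoImplicit false

/-!
# Project 4864 (RN), piece SylFix (PURE MATHLIB): fusion of `P`-fixed points is controlled by `N(P)`
-/

namespace Cfsg.Agent.Lib.H83RNSylFix

/-- If `x` and `g • x` are both fixed by the Sylow subgroup `P`, then `g • x = n • x` for some
`n ∈ N(P)`.

PROOF (compare Mathlib's `Sylow.conj_eq_normalizer_conj_of_mem_centralizer`).
`H := MulAction.stabilizer Γ x`.  `P ≤ H`, and `P' := g⁻¹ P g ≤ H` (for `u ∈ P`:
`(g⁻¹ u g) • x = g⁻¹ • u • g • x = x`).  `P` and `g⁻¹ • P` (`MulAut.conj`/pointwise action on `Sylow p Γ`)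
are Sylow subgroups of `Γ` contained in `H`, so `Sylow.subtype` gives two Sylow subgroups of `H`, conjugate by
some `h ∈ H` (`MulAction.exists_smul_eq H _ _`): `h (g⁻¹ P g) h⁻¹ = P`.  So `h g⁻¹ ∈ N(P)`,
`n := g h⁻¹ ∈ N(P)` and `n • x = g • h⁻¹ • x = g • x`. -/
theorem sylFix {Γ X : Type*} [Group Γ] [Finite Γ] [MulAction Γ X] (p : ℕ) [Fact p.Prime]
    (P : Sylow p Γ) (x : X) (g : Γ) (hx : ∀ u ∈ P, u • x = x) (hgx : ∀ u ∈ P, u • g • x = g • x) :
    ∃ n ∈ Subgroup.normalizer ((P : Subgroup Γ) : Set Γ), n • x = g • x := by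
  have h1 : ↑P ≤ MulAction.stabilizer Γ x := fun u hu => MulAction.mem_stabilizer_iff.mpr (hx u hu)
  have h2 : ↑(g⁻¹ • P) ≤ MulAction.stabilizer Γ x := by
    rintro - ⟨z, hz, rfl⟩
    rw [MulAction.mem_stabilizer_iff]
    have := hgx z hz
    simp only [MulDistribMulAction.toMonoidEnd_apply, MulDistribMulAction.toMonoidHom_apply,
      MulAut.smul_def, MulAut.conj_apply, inv_inv]
    rw [mul_smul, mul_smul, this, inv_smul_smul]
  obtain ⟨h, hh⟩ :=
    MulAction.exists_smul_eq (MulAction.stabilizer Γ x) ((g⁻¹ • P).subtype h2) (P.subtype h1)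
  simp_rw [Sylow.smul_subtype, Subgroup.smul_def, smul_smul] at hh
  have hn : (h : Γ) * g⁻¹ ∈ Subgroup.normalizer ((P : Subgroup Γ) : Set Γ) :=
    Sylow.smul_eq_iff_mem_normalizer.mp (Sylow.subtype_injective hh)
  refine ⟨((h : Γ) * g⁻¹)⁻¹, Subgroup.inv_mem _ hn, ?_⟩
  have hhx : (h : Γ)⁻¹ • x = x := by
    rw [inv_smul_eq_iff]
    exact (MulAction.mem_stabilizer_iff.mp h.2).symm
  rw [mul_inv_rev, inv_inv, mul_smul, hhx]

end Cfsg.Agent.Lib.H83RNSylFix
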