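import Mathlib
import Cfsg.Agent.Lib.H83RNSylFix

set_option autoImplicit false

/-!
# Project 4864 (RN), piece Fus (PURE MATHLIB): counting the `Γ`-orbits that contain a `P`-fixed point
-/

namespace Cfsg.Agent.Lib.H83RNFus

/-- Burnside's lemma for `N = N_Γ(P)` acting on the `P`-fixed points, combined with `SylFix`:
`#{Γ-orbits on X containing a P-fixed point} * |N| = ∑_{n ∈ N} #{x : P-fixed and n-fixed}`. -/
theorem fus {Γ X : Type*} [Group Γ] [Finite Γ] [Finite X] [MulAction Γ X] (p : ℕ) [Fact p.Prime]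
    (P : Sylow p Γ) :
    Nat.card {o : MulAction.orbitRel.Quotient Γ X //
        ∃ x : X, (∀ u ∈ P, u • x = x) ∧ (Quotient.mk'' x : MulAction.orbitRel.Quotient Γ X) = o}
      * Nat.card (Subgroup.normalizer ((P : Subgroup Γ) : Set Γ))
    = ∑ᶠ n : Subgroup.normalizer ((P : Subgroup Γ) : Set Γ),
        Nat.card {x : X // (∀ u ∈ P, u • x = x) ∧ (n : Γ) • x = x} := by
  classical
  set N := Subgroup.normalizer ((P : Subgroup Γ) : Set Γ) with hN
  let F := {x : X // ∀ u ∈ P, u • x = x}
  have hclosed : ∀ (n : N) (x : F), ∀ u ∈ P, u • ((n : Γ) • x.1) = (n : Γ) • x.1 := by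
    intro n x u hu
    have h1 : (n : Γ)⁻¹ * u * n ∈ (P : Subgroup Γ) := by
      have := (Subgroup.mem_normalizer_iff.mp (N.inv_mem n.2) u).mp hu
      simpa using this
    have h2 := x.2 _ h1
    calc u • (n : Γ) • x.1 = (n : Γ) • ((n : Γ)⁻¹ * u * n) • x.1 := by
          simp only [smul_smul]
          congr 1
          group
      _ = (n : Γ) • x.1 := by rw [h2]
  letI : MulAction N F :=
    { smul := fun n x => ⟨(n : Γ) • x.1, hclosed n x⟩
      one_smul := fun x => Subtype.ext (one_smul _ _)
      mul_smul := fun a b x => Subtype.ext (mul_smul _ _ _) }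
  have hsmul : ∀ (n : N) (x : F), (n • x).1 = (n : Γ) • x.1 := fun n x => rfl
  haveI : Fintype N := Fintype.ofFinite _
  haveI : Fintype F := Fintype.ofFinite _
  haveI : Fintype (Quotient (MulAction.orbitRel N F)) := Fintype.ofFinite _
  have burn := MulAction.sum_card_fixedBy_eq_card_orbits_mul_card_group N F
  simp only [← Nat.card_eq_fintype_card] at burn
  rw [finsum_eq_sum_of_fintype]
  -- fixed points
  have hfix : ∀ n : N, Nat.card (MulAction.fixedBy F n) =
      Nat.card {x : X // (∀ u ∈ P, u • x = x) ∧ (n : Γ) • x = x} := by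
    intro n
    refine Nat.card_congr
      { toFun := fun x => ⟨x.1.1, x.1.2, congrArg Subtype.val x.2⟩
        invFun := fun x => ⟨⟨x.1, x.2.1⟩, Subtype.ext x.2.2⟩
        left_inv := fun x => rfl
        right_inv := fun x => rfl }
  -- orbits
  let φ : Quotient (MulAction.orbitRel N F) → {o : MulAction.orbitRel.Quotient Γ X //
        ∃ x : X, (∀ u ∈ P, u • x = x) ∧ (Quotient.mk'' x : MulAction.orbitRel.Quotient Γ X) = o} :=
    fun q => Quotient.liftOn' q (fun x => ⟨Quotient.mk'' x.1, x.1, x.2, rfl⟩) (by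
      intro x y hxy
      obtain ⟨n, hn⟩ := (MulAction.orbitRel_apply.mp hxy)
      apply Subtype.ext
      apply Quotient.sound'
      rw [MulAction.orbitRel_apply]
      exact ⟨(n : Γ), by rw [← hn]; rfl⟩)
  have hφ : Function.Bijective φ := by
    constructor
    · intro q1 q2
      induction q1 using Quotient.inductionOn' with
      | h x =>
      induction q2 using Quotient.inductionOn' with
      | h y =>
      intro h
      have h1 : (Quotient.mk'' x.1 : MulAction.orbitRel.Quotient Γ X) = Quotient.mk'' y.1 :=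
        congrArg Subtype.val h
      have h2 := Quotient.exact' h1
      obtain ⟨g, hg⟩ := (MulAction.orbitRel_apply.mp h2)
      have hg' : g • y.1 = x.1 := hg
      obtain ⟨n, hn, hny⟩ := H83RNSylFix.sylFix p P y.1 g y.2 (by rw [hg']; exact x.2)
      apply Quotient.sound'
      rw [MulAction.orbitRel_apply]
      exact ⟨⟨n, hn⟩, Subtype.ext (by rw [hsmul]; exact hny.trans hg')⟩
    · rintro ⟨o, x, hx, rfl⟩
      exact ⟨Quotient.mk'' ⟨x, hx⟩, rfl⟩
  rw [← Nat.card_congr (Equiv.ofBijective φ hφ), ← burn]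
  exact Finset.sum_congr rfl (fun n _ => hfix n)

end Cfsg.Agent.Lib.H83RNFus
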