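import Mathlib
import Cfsg.Agent.Lib.H83RNFus

set_option autoImplicit false

/-!
# Project 4864 (RN), piece Count (PURE MATHLIB): the orbit counting argument
-/

namespace Cfsg.Agent.Lib.H83RNCount

theorem burnside (Γ X : Type*) [Group Γ] [Finite Γ] [Finite X] [MulAction Γ X] :
    Nat.card (MulAction.orbitRel.Quotient Γ X) * Nat.card Γ
      = ∑ᶠ g : Γ, Nat.card {x : X // g • x = x} := by
  classical
  haveI : Fintype Γ := Fintype.ofFinite _
  haveI : Fintype X := Fintype.ofFinite _
  haveI : Fintype (Quotient (MulAction.orbitRel Γ X)) := Fintype.ofFinite _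
  have burn := MulAction.sum_card_fixedBy_eq_card_orbits_mul_card_group Γ X
  simp only [← Nat.card_eq_fintype_card] at burn
  rw [finsum_eq_sum_of_fintype]
  exact burn.symm

/-- Two finite `Γ`-sets `X`, `Y` with (a) the same permutation character, (b) the same number of
`⟨P, n⟩`-fixed points for every `n ∈ N(P)`; (c) every point of `X` is conjugate to a `P`-fixed point.  Then every
point of `Y` is conjugate to a `P`-fixed point. -/
theorem count0 {Γ X Y : Type*} [Group Γ] [Finite Γ] [Finite X] [Finite Y] [MulAction Γ X]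
    [MulAction Γ Y] (p : ℕ) [Fact p.Prime] (P : Sylow p Γ)
    (ha : ∀ g : Γ, Nat.card {x : X // g • x = x} = Nat.card {y : Y // g • y = y})
    (hb : ∀ n ∈ Subgroup.normalizer ((P : Subgroup Γ) : Set Γ),
      Nat.card {x : X // (∀ u ∈ P, u • x = x) ∧ n • x = x}
        = Nat.card {y : Y // (∀ u ∈ P, u • y = y) ∧ n • y = y})
    (hc : ∀ x : X, ∃ g : Γ, ∀ u ∈ P, u • g • x = g • x) :
    ∀ y : Y, ∃ g : Γ, ∀ u ∈ P, u • g • y = g • y := by
  classical
  have horb : Nat.card (MulAction.orbitRel.Quotient Γ X)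
      = Nat.card (MulAction.orbitRel.Quotient Γ Y) := by
    have h1 := burnside Γ X
    have h2 := burnside Γ Y
    rw [finsum_congr ha, ← h2] at h1
    exact Nat.eq_of_mul_eq_mul_right Nat.card_pos h1
  have hgood : Nat.card {o : MulAction.orbitRel.Quotient Γ X //
        ∃ x : X, (∀ u ∈ P, u • x = x) ∧ (Quotient.mk'' x : MulAction.orbitRel.Quotient Γ X) = o}
      = Nat.card {o : MulAction.orbitRel.Quotient Γ Y //
        ∃ x : Y, (∀ u ∈ P, u • x = x) ∧ (Quotient.mk'' x : MulAction.orbitRel.Quotient Γ Y) = o} := by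
    have h1 := H83RNFus.fus (X := X) p P
    have h2 := H83RNFus.fus (X := Y) p P
    rw [finsum_congr (fun n : Subgroup.normalizer ((P : Subgroup Γ) : Set Γ) => hb n.1 n.2),
      ← h2] at h1
    exact Nat.eq_of_mul_eq_mul_right Nat.card_pos h1
  have hallX : Nat.card {o : MulAction.orbitRel.Quotient Γ X //
        ∃ x : X, (∀ u ∈ P, u • x = x) ∧ (Quotient.mk'' x : MulAction.orbitRel.Quotient Γ X) = o}
      = Nat.card (MulAction.orbitRel.Quotient Γ X) := by
    refine Nat.card_congr (Equiv.subtypeUnivEquiv ?_)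
    intro o
    induction o using Quotient.inductionOn' with
    | h x =>
    obtain ⟨g, hg⟩ := hc x
    refine ⟨g • x, hg, ?_⟩
    apply Quotient.sound'
    rw [MulAction.orbitRel_apply]
    exact ⟨g, rfl⟩
  intro y
  by_contra hy
  have hlt := Finite.card_subtype_lt (p := fun o : MulAction.orbitRel.Quotient Γ Y =>
        ∃ x : Y, (∀ u ∈ P, u • x = x) ∧ (Quotient.mk'' x : MulAction.orbitRel.Quotient Γ Y) = o)
        (x := Quotient.mk'' y) (by
    rintro ⟨x', hx', hxy⟩
    apply hy
    have h2 := Quotient.exact' hxy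
    obtain ⟨g, hg⟩ := (MulAction.orbitRel_apply.mp h2)
    have hg' : g • y = x' := hg
    exact ⟨g, by rw [hg']; exact hx'⟩)
  rw [← hgood, hallX, horb] at hlt
  exact lt_irrefl _ hlt

end Cfsg.Agent.Lib.H83RNCount
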