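import Mathlib
import Cfsg.Agent.Lib.H83RNCount

set_option autoImplicit false

/-!
# Project 4864 (RN), piece CountR (PURE MATHLIB): `Count` for invariant subsets, actions given by homs
-/

namespace Cfsg.Agent.Lib.H83RNCountR

/-- The version of `H83RNCount.count0` for invariant subsets. -/
theorem countR {Γ X Y : Type*} [Group Γ] [Finite Γ] [Finite X] [Finite Y] (p : ℕ) [Fact p.Prime]
    (P : Sylow p Γ) (aX : Γ →* Equiv.Perm X) (aY : Γ →* Equiv.Perm Y)
    (RX : X → Prop) (RY : Y → Prop)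
    (hRX : ∀ g x, RX x → RX (aX g x)) (hRY : ∀ g y, RY y → RY (aY g y))
    (ha : ∀ g : Γ, Nat.card {x : X // RX x ∧ aX g x = x} = Nat.card {y : Y // RY y ∧ aY g y = y})
    (hb : ∀ n ∈ Subgroup.normalizer ((P : Subgroup Γ) : Set Γ),
      Nat.card {x : X // RX x ∧ (∀ u ∈ P, aX u x = x) ∧ aX n x = x}
        = Nat.card {y : Y // RY y ∧ (∀ u ∈ P, aY u y = y) ∧ aY n y = y})
    (hc : ∀ x : X, RX x → ∃ g : Γ, ∀ u ∈ P, aX u (aX g x) = aX g x) :
    ∀ y : Y, RY y → ∃ g : Γ, ∀ u ∈ P, aY u (aY g y) = aY g y := by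
  let iX : MulAction Γ {x // RX x} :=
    { smul := fun g x => ⟨aX g x.1, hRX g x.1 x.2⟩
      one_smul := fun x => Subtype.ext (by
        change aX 1 x.1 = x.1
        rw [map_one]; rfl)
      mul_smul := fun g h x => Subtype.ext (by
        change aX (g * h) x.1 = aX g (aX h x.1)
        rw [map_mul]; rfl) }
  let iY : MulAction Γ {y // RY y} :=
    { smul := fun g x => ⟨aY g x.1, hRY g x.1 x.2⟩
      one_smul := fun x => Subtype.ext (by
        change aY 1 x.1 = x.1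
        rw [map_one]; rfl)
      mul_smul := fun g h x => Subtype.ext (by
        change aY (g * h) x.1 = aY g (aY h x.1)
        rw [map_mul]; rfl) }
  have eX : ∀ g : Γ, Nat.card {x' : {x // RX x} // g • x' = x'}
      = Nat.card {x : X // RX x ∧ aX g x = x} := fun g =>
    Nat.card_congr ⟨fun x => ⟨x.1.1, x.1.2, congrArg Subtype.val x.2⟩,
      fun x => ⟨⟨x.1, x.2.1⟩, Subtype.ext x.2.2⟩, fun _ => rfl, fun _ => rfl⟩
  have eY : ∀ g : Γ, Nat.card {x' : {x // RY x} // g • x' = x'}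
      = Nat.card {x : Y // RY x ∧ aY g x = x} := fun g =>
    Nat.card_congr ⟨fun x => ⟨x.1.1, x.1.2, congrArg Subtype.val x.2⟩,
      fun x => ⟨⟨x.1, x.2.1⟩, Subtype.ext x.2.2⟩, fun _ => rfl, fun _ => rfl⟩
  have fX : ∀ n : Γ, Nat.card {x' : {x // RX x} // (∀ u ∈ P, u • x' = x') ∧ n • x' = x'}
      = Nat.card {x : X // RX x ∧ (∀ u ∈ P, aX u x = x) ∧ aX n x = x} := fun n =>
    Nat.card_congr ⟨fun x => ⟨x.1.1, x.1.2, fun u hu => congrArg Subtype.val (x.2.1 u hu),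
        congrArg Subtype.val x.2.2⟩,
      fun x => ⟨⟨x.1, x.2.1⟩, fun u hu => Subtype.ext (x.2.2.1 u hu), Subtype.ext x.2.2.2⟩,
      fun _ => rfl, fun _ => rfl⟩
  have fY : ∀ n : Γ, Nat.card {x' : {x // RY x} // (∀ u ∈ P, u • x' = x') ∧ n • x' = x'}
      = Nat.card {x : Y // RY x ∧ (∀ u ∈ P, aY u x = x) ∧ aY n x = x} := fun n =>
    Nat.card_congr ⟨fun x => ⟨x.1.1, x.1.2, fun u hu => congrArg Subtype.val (x.2.1 u hu),
        congrArg Subtype.val x.2.2⟩,
      fun x => ⟨⟨x.1, x.2.1⟩, fun u hu => Subtype.ext (x.2.2.1 u hu), Subtype.ext x.2.2.2⟩,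
      fun _ => rfl, fun _ => rfl⟩
  have key := Cfsg.Agent.Lib.H83RNCount.count0 (X := {x // RX x}) (Y := {y // RY y}) p P
    (fun g => by rw [eX, eY, ha])
    (fun n hn => by rw [fX, fY, hb n hn])
    (fun x => by
      obtain ⟨g, hg⟩ := hc x.1 x.2
      exact ⟨g, fun u hu => Subtype.ext (hg u hu)⟩)
  intro y hy
  obtain ⟨g, hg⟩ := key ⟨y, hy⟩
  exact ⟨g, fun u hu => congrArg Subtype.val (hg u hu)⟩

end Cfsg.Agent.Lib.H83RNCountR
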