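import Mathlib
import Cfsg.Agent.Lib.H83RNDefs

set_option autoImplicit false

/-!
# Project 4864 (RN), piece GlCl: invariant classes of `G` <-> classes of the fixed point subgroup,
compatibly with an automorphism and with inversion
-/

namespace Cfsg.Agent.Lib.H83RNGlCl

open Cfsg.Agent.Lib.H83RNDefs Cfsg.Agent.Lib.Helper77Glaub Cfsg.Agent.Lib.Helper77Glaub2

/-- `T` a `p`-group acting on the `p'`-group `G`, `C = fixSub φT`; `a` an automorphism of `G`
whose restriction to `C` is `b`.  The real `b`-invariant classes of `C` correspond to the real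
`T`-invariant `a`-invariant classes of `G`. -/
theorem card_cl {G T : Type*} [Group G] [Group T] [Finite G] (p : ℕ) [Fact p.Prime]
    (hT : IsPGroup p T) (φT : T →* MulAut G) (hp : ¬ p ∣ Nat.card G)
    (a : MulAut G) (b : MulAut (fixSub φT))
    (hab : ∀ c : fixSub φT, ((b c : fixSub φT) : G) = a (c : G)) :
    Nat.card {L : ConjClasses (fixSub φT) // RC L ∧ clHom b L = L}
      = Nat.card {C : ConjClasses G // RC C ∧ InvC φT C ∧ clHom a C = C} := by
  have := Fintype.ofFinite G
  have : Fintype (fixSub φT) := Fintype.ofFinite _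
  have hfix := isFix_fixSub φT
  set ι := (fixSub φT).subtype with hι
  have hab' : ∀ c : fixSub φT, ι (b c) = a (ι c) := hab
  have hwd : ∀ L : {L : ConjClasses (fixSub φT) // RC L ∧ clHom b L = L},
      RC (ConjClasses.map ι L.1) ∧ InvC φT (ConjClasses.map ι L.1)
        ∧ clHom a (ConjClasses.map ι L.1) = ConjClasses.map ι L.1 := by
    rintro ⟨L, hL1, hL2⟩
    obtain ⟨c, rfl⟩ := ConjClasses.exists_rep L
    rw [RC_mk] at hL1
    rw [clHom_mk] at hL2
    change RC (ConjClasses.mk (ι c)) ∧ InvC φT (ConjClasses.mk (ι c))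
      ∧ clHom a (ConjClasses.mk (ι c)) = ConjClasses.mk (ι c)
    refine ⟨?_, ?_, ?_⟩
    · rw [RC_mk]
      have := ι.map_isConj hL1
      rwa [map_inv] at this
    · intro t g hg
      have h1 : IsConj (φT t g) (φT t (ι c)) :=
        (φT t).toMonoidHom.map_isConj (ConjClasses.mk_eq_mk_iff_isConj.mp hg)
      rw [hfix.apply] at h1
      exact ConjClasses.mk_eq_mk_iff_isConj.mpr h1
    · rw [clHom_mk, ← hab']
      exact ConjClasses.mk_eq_mk_iff_isConj.mpr
        (ι.map_isConj (ConjClasses.mk_eq_mk_iff_isConj.mp hL2))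
  refine Nat.card_eq_of_bijective (fun L => ⟨ConjClasses.map ι L.1, hwd L⟩) ⟨?_, ?_⟩
  · rintro ⟨L, hL⟩ ⟨L', hL'⟩ he
    have he' : ConjClasses.map ι L = ConjClasses.map ι L' := congrArg Subtype.val he
    apply Subtype.ext
    obtain ⟨c, rfl⟩ := ConjClasses.exists_rep L
    obtain ⟨c', rfl⟩ := ConjClasses.exists_rep L'
    change ConjClasses.mk (ι c) = ConjClasses.mk (ι c') at he'
    exact ConjClasses.mk_eq_mk_iff_isConj.mpr
      (conj_of_conj p hT hfix hp (ConjClasses.mk_eq_mk_iff_isConj.mp he'))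
  · rintro ⟨K, hK1, hK2, hK3⟩
    obtain ⟨c, hc⟩ := exists_fixed_in_class p hT hfix hp hK2
    subst hc
    refine ⟨⟨ConjClasses.mk c, ?_, ?_⟩, rfl⟩
    · rw [RC_mk] at hK1 ⊢
      rw [← map_inv] at hK1
      exact conj_of_conj p hT hfix hp hK1
    · rw [clHom_mk] at hK3 ⊢
      rw [← hab'] at hK3
      exact ConjClasses.mk_eq_mk_iff_isConj.mpr
        (conj_of_conj p hT hfix hp (ConjClasses.mk_eq_mk_iff_isConj.mp hK3))

end Cfsg.Agent.Lib.H83RNGlCl
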