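import Mathlib
import Cfsg.Agent.Lib.H83RNDefs

set_option autoImplicit false

/-!
# Project 4864 (RN), piece GlIrr: the Glauberman correspondence (p-group case) respects
an automorphism normalising the action AND complex conjugation
-/

namespace Cfsg.Agent.Lib.H83RNGlIrr

open Module Representation
open scoped ComplexConjugate
open Cfsg.Agent.Lib.Helper4Eigen Cfsg.Agent.Lib.Helper4Char Cfsg.Agent.Lib.Helper4Char2
  Cfsg.Agent.Lib.Helper4Char3 Cfsg.Agent.Lib.Helper4Char4 Cfsg.Agent.Lib.Helper4Perm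
open Cfsg.Agent.Lib.H83RNDefs Cfsg.Agent.Lib.Helper77Glaub Cfsg.Agent.Lib.Helper77Glaub2

theorem classInner_conj_conj {C : Type*} [Group C] [Fintype C] (f1 f2 : C → ℂ) :
    Cfsg.classInner (fun c => conj (f1 c)) (fun c => conj (f2 c))
      = conj (Cfsg.classInner f1 f2) := by
  unfold Cfsg.classInner
  rw [map_mul, map_sum, map_inv₀, Complex.conj_natCast]
  congr 1
  refine Finset.sum_congr rfl (fun c _ => ?_)
  rw [map_mul]

theorem mlt_conj {G C : Type*} [Group G] [Group C] [Fintype C] (ι : C →* G)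
    (χ : G → ℂ) (γ : C → ℂ) :
    mlt ι (fun g => conj (χ g)) (fun c => conj (γ c)) = mlt ι χ γ := by
  unfold mlt
  rw [classInner_conj_conj (fun c => χ (ι c)) γ, Complex.conj_re]

/-- `T` a `p`-group acting on the `p'`-group `G`, `C = fixSub φT`; `a` an automorphism of `G`
normalising the action, `b` its restriction to `C`. -/
theorem card_irr {G T : Type*} [Group G] [Group T] [Finite G] (p : ℕ) [Fact p.Prime]
    (hT : IsPGroup p T) (φT : T →* MulAut G) (hp : ¬ p ∣ Nat.card G)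
    (a : MulAut G) (b : MulAut (fixSub φT))
    (hab : ∀ c : fixSub φT, ((b c : fixSub φT) : G) = a (c : G))
    (hN : ∀ t, ∃ t', a * φT t = φT t' * a) :
    Nat.card {χ : Cfsg.IrrCharacter G // RI χ ∧ Inv φT χ.1 ∧ ∀ g, χ.1 (a g) = χ.1 g}
      = Nat.card {β : Cfsg.IrrCharacter (fixSub φT) // RI β ∧ ∀ c, β.1 (b c) = β.1 c} := by
  have := Fintype.ofFinite G
  have : Fintype (fixSub φT) := Fintype.ofFinite _
  have hfix := isFix_fixSub φT
  set ι := (fixSub φT).subtype with hι
  have hab' : ∀ c : fixSub φT, ι (b c) = a (ι c) := hab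
  have hex : ∀ χ : {χ : Cfsg.IrrCharacter G // RI χ ∧ Inv φT χ.1 ∧ ∀ g, χ.1 (a g) = χ.1 g},
      ∃ β : Cfsg.IrrCharacter (fixSub φT), ¬ p ∣ mlt ι χ.1.1 β.1 := fun χ =>
    exists_corr p hT hfix hp χ.1.2 χ.2.2.1
  choose f hf using hex
  have hfb : ∀ χ, ∀ c, (f χ).1 (b c) = (f χ).1 c := by
    intro χ
    have h1 : (⟨fun c => (f χ).1 (b c), IsIrrCharacter.comp_mulEquiv b (f χ).2⟩ :
        Cfsg.IrrCharacter (fixSub φT)) = f χ := by
      apply corr_unique p hT hfix hp χ.1.2 χ.2.2.1 _ _ _ (hf χ)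
      have h2 := mlt_comp ι a b hab' χ.1.1 (f χ).1
      have h3 : (fun g => χ.1.1 (a g)) = χ.1.1 := funext (fun g => χ.2.2.2 g)
      rw [h3] at h2
      change ¬ p ∣ mlt ι χ.1.1 (fun c => (f χ).1 (b c))
      rw [h2]
      exact hf χ
    intro c
    exact congrFun (congrArg Subtype.val h1) c
  have hfr : ∀ χ, RI (f χ) := by
    intro χ
    have h1 : (⟨fun c => conj ((f χ).1 c), IsIrrCharacter.conj (f χ).2⟩ :
        Cfsg.IrrCharacter (fixSub φT)) = f χ := by
      apply corr_unique p hT hfix hp χ.1.2 χ.2.2.1 _ _ _ (hf χ)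
      have h2 := mlt_conj ι χ.1.1 (f χ).1
      have h3 : (fun g => conj (χ.1.1 g)) = χ.1.1 :=
        funext (fun g => Complex.conj_eq_iff_im.mpr (χ.2.1 g))
      rw [h3] at h2
      change ¬ p ∣ mlt ι χ.1.1 (fun c => conj ((f χ).1 c))
      rw [h2]
      exact hf χ
    intro c
    exact Complex.conj_eq_iff_im.mp (congrFun (congrArg Subtype.val h1) c)
  refine Nat.card_eq_of_bijective (fun χ => ⟨f χ, hfr χ, hfb χ⟩) ⟨?_, ?_⟩
  · intro χ χ' he
    have he' : f χ = f χ' := congrArg Subtype.val he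
    apply Subtype.ext
    apply Subtype.ext
    refine corr_inj p hT hfix hp χ.1.2 χ.2.2.1 χ'.1.2 χ'.2.2.1 (f χ).2 (hf χ) ?_
    rw [he']
    exact hf χ'
  · rintro ⟨β, hβr, hβb⟩
    obtain ⟨χ, hχi, hχ⟩ := corr_surj p hT hfix hp β
    have hχa : ∀ g, χ.1 (a g) = χ.1 g := by
      have hinv : Inv φT (fun g => χ.1 (a g)) := by
        intro t g
        obtain ⟨t', ht'⟩ := hN t
        have h2 := congrArg (fun e : MulAut G => e g) ht'
        simp only [MulAut.mul_apply] at h2
        change χ.1 (a (φT t g)) = χ.1 (a g)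
        rw [h2, hχi]
      have h1 : (fun g => χ.1 (a g)) = χ.1 := by
        refine corr_inj p hT hfix hp (IsIrrCharacter.comp_mulEquiv a χ.2) hinv χ.2 hχi β.2 ?_ hχ
        have h2 := mlt_comp ι a b hab' χ.1 β.1
        have h3 : (fun c => β.1 (b c)) = β.1 := funext (fun c => hβb c)
        rw [h3] at h2
        rw [h2]
        exact hχ
      exact fun g => congrFun h1 g
    have hχr : RI χ := by
      have hinv : Inv φT (fun g => conj (χ.1 g)) := by
        intro t g
        change conj (χ.1 (φT t g)) = conj (χ.1 g)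
        rw [hχi]
      have h1 : (fun g => conj (χ.1 g)) = χ.1 := by
        refine corr_inj p hT hfix hp (IsIrrCharacter.conj χ.2) hinv χ.2 hχi β.2 ?_ hχ
        have h2 := mlt_conj ι χ.1 β.1
        have h3 : (fun c => conj (β.1 c)) = β.1 :=
          funext (fun c => Complex.conj_eq_iff_im.mpr (hβr c))
        rw [h3] at h2
        rw [h2]
        exact hχ
      exact fun g => Complex.conj_eq_iff_im.mp (congrFun h1 g)
    refine ⟨⟨χ, hχr, hχi, hχa⟩, ?_⟩
    apply Subtype.ext
    exact corr_unique p hT hfix hp χ.2 hχi _ _ (hf ⟨χ, hχr, hχi, hχa⟩) hχ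

end Cfsg.Agent.Lib.H83RNGlIrr
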