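import Mathlib
import Cfsg.Prelude.Def_Blocks
import Cfsg.Agent.Lib.H83RNDefs
import Cfsg.Agent.S0854
import Cfsg.Agent.Lib.Helper82Mult
import Cfsg.Agent.Lib.Helper83Char

set_option autoImplicit false

/-!
# Project 4864 (RN), piece InvConj: every real character of `K` has a `P`-invariant conjugate
-/

namespace Cfsg.Agent.Lib.H83RNInvConj

open Cfsg.Agent.Lib.H83RNDefs

/-- the inertia group -/
def inertia {Γ : Type*} [Group Γ] (K : Subgroup Γ) [K.Normal] (θ : K → ℂ) : Subgroup Γ where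
  carrier := {g | ∀ k : K, θ (MulAut.conjNormal g k) = θ k}
  one_mem' := by
    intro k
    simp
  mul_mem' := by
    intro a b ha hb k
    rw [map_mul, MulAut.mul_apply, ha, hb]
  inv_mem' := by
    intro a ha k
    have := ha (MulAut.conjNormal a⁻¹ k)
    rw [← MulAut.mul_apply, ← map_mul, mul_inv_cancel, map_one, MulAut.one_apply] at this
    exact this.symm

theorem exists_conj_le_inertia {Γ : Type*} [Group Γ] [Fintype Γ] (K : Subgroup Γ) [K.Normal] [Fintype K]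
    (p : ℕ) [Fact p.Prime] (P : Sylow p Γ) (θ : Cfsg.IrrCharacter K) (χ : Cfsg.IrrCharacter Γ)
    (hcon : Cfsg.classInner (fun k : K => (χ : Γ → ℂ) k) (θ : K → ℂ) ≠ 0)
    (hdeg : ¬ p ∣ Cfsg.charDegree (χ : Γ → ℂ)) :
    ∃ g : Γ, ∀ u ∈ P, ∀ k : K,
      (θ : K → ℂ) (MulAut.conjNormal (g⁻¹ * u * g) k) = (θ : K → ℂ) k := by
  classical
  obtain ⟨T, hTdef⟩ : ∃ T, T = inertia K (θ : K → ℂ) := ⟨_, rfl⟩
  have hmem : ∀ g : Γ, g ∈ T ↔ ∀ k : K, (θ : K → ℂ) (MulAut.conjNormal g k) = (θ : K → ℂ) k := by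
    intro g; rw [hTdef]; rfl
  have hcn : ∀ (g : Γ) (k : K), MulAut.conjNormal g k =
      ⟨g * k * g⁻¹, (inferInstance : K.Normal).conj_mem (k : Γ) k.2 g⟩ := by
    intro g k
    apply Subtype.ext
    rw [MulAut.conjNormal_apply]
  have hT : ∀ g : Γ, g ∈ T ↔ ∀ n : K, (θ : K → ℂ)
      ⟨g * n * g⁻¹, (inferInstance : K.Normal).conj_mem (n : Γ) n.2 g⟩ = (θ : K → ℂ) n := by
    intro g
    rw [hmem]
    refine forall_congr' fun k => ?_
    rw [hcn]
  have hKT : K ≤ T := by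
    intro x hx
    rw [hT]
    intro n
    have := Cfsg.Agent.Lib.Helper4Char.IsIrrCharacter.isClassFunction θ.2 n ⟨x, hx⟩
    rw [← this]
    rfl
  have : Fintype T := Fintype.ofFinite T
  obtain ⟨ψ, hψ, hind, -⟩ := Cfsg.Agent.S0854.result K θ θ.2 T hT hKT χ χ.2 hcon
  have h1 : (χ : Γ → ℂ) 1 = (T.index : ℂ) * ψ 1 := by
    rw [← hind, Cfsg.Agent.Lib.Helper82Mult.indFun_one]
  rw [← Cfsg.Agent.Lib.Helper83Char.charDegree_cast χ.2,
    ← Cfsg.Agent.Lib.Helper83Char.charDegree_cast hψ] at h1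
  have h2 : Cfsg.charDegree (χ : Γ → ℂ) = T.index * Cfsg.charDegree ψ := by exact_mod_cast h1
  have h3 : ¬ p ∣ Nat.card (Γ ⧸ T) := by
    intro hp
    apply hdeg
    rw [h2]
    exact Dvd.dvd.mul_right hp _
  obtain ⟨x, hx⟩ := IsPGroup.nonempty_fixed_point_of_prime_not_dvd_card (α := Γ ⧸ T) P.2 h3
  obtain ⟨g, rfl⟩ := QuotientGroup.mk_surjective x
  refine ⟨g, fun u hu => ?_⟩
  rw [← hmem]
  have h4 := hx ⟨u, hu⟩
  have h5 : ((u * g : Γ) : Γ ⧸ T) = (g : Γ ⧸ T) := h4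
  have h6 := QuotientGroup.eq.1 h5.symm
  rwa [← mul_assoc] at h6

end Cfsg.Agent.Lib.H83RNInvConj
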