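import Mathlib

set_option autoImplicit false

/-!
# Project 4864 (RN), piece RealK (PURE MATHLIB): real elements and normal subgroups of odd index
-/

namespace Cfsg.Agent.Lib.H83RNRealK

/-- A real element of `Γ` lies in every normal subgroup `K` of odd index and is real in `K`. -/
theorem real_mem {Γ : Type*} [Group Γ] [Finite Γ] (K : Subgroup Γ) [K.Normal] (hodd : Odd K.index)
    (x : Γ) (hx : IsConj x x⁻¹) :
    ∃ hxK : x ∈ K, IsConj (⟨x, hxK⟩ : K) (⟨x, hxK⟩ : K)⁻¹ := by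
  obtain ⟨t, ht⟩ := isConj_iff.1 hx
  obtain ⟨r, hr⟩ := hodd
  have h2 : ∀ j : ℕ, t ^ (2 * j) * x * (t ^ (2 * j))⁻¹ = x := by
    intro j
    induction j with
    | zero => simp
    | succ j ih =>
      have e : t ^ (2 * (j + 1)) = t * t * t ^ (2 * j) := by
        rw [mul_add, mul_one, add_comm, pow_add, pow_two]
      rw [e]
      calc t * t * t ^ (2 * j) * x * (t * t * t ^ (2 * j))⁻¹
          = t * (t * (t ^ (2 * j) * x * (t ^ (2 * j))⁻¹) * t⁻¹) * t⁻¹ := by group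
        _ = t * (t * x * t⁻¹) * t⁻¹ := by rw [ih]
        _ = t * x⁻¹ * t⁻¹ := by rw [ht]
        _ = (t * x * t⁻¹)⁻¹ := by group
        _ = x := by rw [ht, inv_inv]
  set s := t ^ K.index with hs
  have hsK : s ∈ K := Subgroup.pow_index_mem K t
  have hsx : s * x * s⁻¹ = x⁻¹ := by
    rw [hs, hr, pow_succ]
    calc t ^ (2 * r) * t * x * (t ^ (2 * r) * t)⁻¹
        = t ^ (2 * r) * (t * x * t⁻¹) * (t ^ (2 * r))⁻¹ := by group
      _ = t ^ (2 * r) * x⁻¹ * (t ^ (2 * r))⁻¹ := by rw [ht]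
      _ = (t ^ (2 * r) * x * (t ^ (2 * r))⁻¹)⁻¹ := by group
      _ = x⁻¹ := by rw [h2]
  have hxx : x⁻¹ * x⁻¹ ∈ K := by
    have h1 : x⁻¹ * s * x⁻¹⁻¹ ∈ K := ‹K.Normal›.conj_mem s hsK x⁻¹
    have e : x⁻¹ * x⁻¹ = (x⁻¹ * s * x⁻¹⁻¹) * s⁻¹ := by
      calc x⁻¹ * x⁻¹ = x⁻¹ * (s * x * s⁻¹) := by rw [hsx]
        _ = _ := by group
    rw [e]
    exact K.mul_mem h1 (K.inv_mem hsK)
  have hx2 : x ^ 2 ∈ K := by
    have := K.inv_mem hxx
    rw [pow_two]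
    simpa using this
  have hxm : x ^ K.index ∈ K := Subgroup.pow_index_mem K x
  have hxK : x ∈ K := by
    rw [hr, pow_succ, pow_mul] at hxm
    exact (K.mul_mem_cancel_left (K.pow_mem hx2 r)).1 hxm
  refine ⟨hxK, ?_⟩
  rw [isConj_iff]
  exact ⟨⟨s, hsK⟩, Subtype.ext hsx⟩

end Cfsg.Agent.Lib.H83RNRealK
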