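import Mathlib
import Cfsg.Agent.Lib.Helper83Real
import Cfsg.Agent.Lib.Helper57SPE

set_option autoImplicit false

/-!
Groups whose real irreducible characters have `p'`-degree (Isaacs–Navarro): normal Sylow
`p`-subgroups above `O^{2'}(G)`.
-/

namespace Cfsg.Agent.Lib.Helper83RealP

open Cfsg Cfsg.Agent.Lib.Helper83Real

/-- The hypotheses, in a quotient-friendly form. -/
structure Hyp (p : ℕ) (G : Type*) [Group G] (S K U : Subgroup G) (T : Set G) : Prop where
  nS : S.Normal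
  nK : K.Normal
  nU : U.Normal
  solv : Group.IsSolvable S
  idx : ¬ p ∣ S.index
  two : ∀ t ∈ T, ∃ k : ℕ, t ^ 2 ^ k = 1
  gen : K = Subgroup.closure T
  le : K ≤ U
  pq : ∀ u ∈ U, ∃ k : ℕ, u ^ p ^ k ∈ K
  real : ∀ χ : IrrCharacter G, (∀ g : G, ((χ : G → ℂ) g).im = 0) → ¬ p ∣ charDegree (χ : G → ℂ)

/-- The conclusion: `U` has a normal Sylow `p`-subgroup (normal in `G`). -/
def Concl (p : ℕ) (G : Type*) [Group G] (U : Subgroup G) : Prop :=
  ∃ Q : Subgroup G, Q.Normal ∧ IsPGroup p Q ∧ Q ≤ U ∧ ∀ u ∈ U, (∃ k : ℕ, u ^ p ^ k = 1) → u ∈ Q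

variable {p : ℕ} {G : Type*} [Group G]

theorem Hyp.quot {S K U : Subgroup G} {T : Set G} (h : Hyp p G S K U T) (N : Subgroup G)
    [N.Normal] :
    Hyp p (G ⧸ N) (S.map (QuotientGroup.mk' N)) (K.map (QuotientGroup.mk' N))
      (U.map (QuotientGroup.mk' N)) ((QuotientGroup.mk' N) '' T) where
  nS := h.nS.map _ (QuotientGroup.mk'_surjective N)
  nK := h.nK.map _ (QuotientGroup.mk'_surjective N)
  nU := h.nU.map _ (QuotientGroup.mk'_surjective N)
  solv := by
    have := h.solv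
    exact Group.isSolvable_of_surjective ((QuotientGroup.mk' N).subgroupMap_surjective S)
  idx := fun hd => h.idx (hd.trans (Subgroup.index_map_dvd S (QuotientGroup.mk'_surjective N)))
  two := by
    rintro _ ⟨t, ht, rfl⟩
    obtain ⟨k, hk⟩ := h.two t ht
    exact ⟨k, by rw [← map_pow, hk, map_one]⟩
  gen := by rw [h.gen, MonoidHom.map_closure]
  le := Subgroup.map_mono h.le
  pq := by
    rintro _ ⟨u, hu, rfl⟩
    obtain ⟨k, hk⟩ := h.pq u hu
    exact ⟨k, by rw [← map_pow]; exact Subgroup.mem_map_of_mem _ hk⟩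
  real := by
    intro ψ hψ
    have h1 := h.real (Cfsg.Agent.Lib.Helper82Quot.inflate N ψ) (by
      intro g
      rw [Cfsg.Agent.Lib.Helper82Quot.inflate_apply]
      exact hψ _)
    have h2 : charDegree ((Cfsg.Agent.Lib.Helper82Quot.inflate N ψ : IrrCharacter G) : G → ℂ)
        = charDegree (ψ : G ⧸ N → ℂ) := by
      unfold charDegree
      rw [Cfsg.Agent.Lib.Helper82Quot.inflate_apply]
      rfl
    rwa [h2] at h1

theorem Concl.lift {U : Subgroup G} (N : Subgroup G) [N.Normal] (hNU : N ≤ U)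
    (hNp : IsPGroup p N) (h : Concl p (G ⧸ N) (U.map (QuotientGroup.mk' N))) : Concl p G U := by
  obtain ⟨Q, hQn, hQp, hQU, hQall⟩ := h
  refine ⟨Q.comap (QuotientGroup.mk' N), hQn.comap _, ?_, ?_, ?_⟩
  · rintro ⟨g, hg⟩
    obtain ⟨k, hk⟩ := hQp ⟨QuotientGroup.mk' N g, Subgroup.mem_comap.mp hg⟩
    have h1 : g ^ p ^ k ∈ N := by
      have h2 : (QuotientGroup.mk' N g) ^ p ^ k = 1 := congrArg Subtype.val hk
      rw [← map_pow, QuotientGroup.mk'_apply, QuotientGroup.eq_one_iff] at h2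
      exact h2
    obtain ⟨j, hj⟩ := hNp ⟨g ^ p ^ k, h1⟩
    refine ⟨k + j, ?_⟩
    apply Subtype.ext
    have h3 : (g ^ p ^ k) ^ p ^ j = 1 := congrArg Subtype.val hj
    show g ^ p ^ (k + j) = 1
    rw [pow_add, pow_mul, h3]
  · intro g hg
    have h1 := hQU hg
    obtain ⟨u, hu, hug⟩ := h1
    rw [QuotientGroup.mk'_apply, QuotientGroup.mk'_apply, QuotientGroup.eq] at hug
    have : g = u * (u⁻¹ * g) := by group
    rw [this]
    exact U.mul_mem hu (hNU hug)
  · intro u hu ⟨k, hk⟩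
    exact hQall _ (Subgroup.mem_map_of_mem _ hu) ⟨k, by rw [← map_pow, hk, map_one]⟩

/-- `p`-elements lie in a normal subgroup of index prime to `p`. -/
theorem mem_of_pow_eq_one [Finite G] [Fact p.Prime] (S : Subgroup G) [S.Normal] (hS : ¬ p ∣ S.index) (g : G)
    (k : ℕ) (hg : g ^ p ^ k = 1) : g ∈ S := by
  rw [← QuotientGroup.eq_one_iff, ← orderOf_eq_one_iff]
  have h1 : orderOf (g : G ⧸ S) ∣ p ^ k := by
    apply orderOf_dvd_of_pow_eq_one
    rw [← QuotientGroup.mk_pow, hg]; rfl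
  have h2 : orderOf (g : G ⧸ S) ∣ S.index := by
    rw [Subgroup.index_eq_card]; exact orderOf_dvd_natCard _
  have h3 : Nat.Coprime (p ^ k) S.index :=
    Nat.Coprime.pow_left k ((Nat.Prime.coprime_iff_not_dvd Fact.out).mpr hS)
  exact Nat.eq_one_of_dvd_coprimes h3 h1 h2

/-- A minimal normal subgroup meeting a solvable normal subgroup is abelian. -/
theorem comm_of_minimal [Finite G] (S N : Subgroup G) [S.Normal] [N.Normal] (hS : Group.IsSolvable S)
    (hmin : ∀ M : Subgroup G, M.Normal → M ≤ N → M ≠ ⊥ → M = N)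
    (hex : ∃ n ∈ N, n ≠ 1 ∧ n ∈ S) : ∀ a ∈ N, ∀ b ∈ N, a * b = b * a := by
  obtain ⟨n, hnN, hn1, hnS⟩ := hex
  have h1 : N ⊓ S = N := by
    apply hmin _ inferInstance inf_le_left
    intro h
    have : n ∈ N ⊓ S := ⟨hnN, hnS⟩
    rw [h, Subgroup.mem_bot] at this
    exact hn1 this
  have hNS : N ≤ S := by rw [← h1]; exact inf_le_right
  have hsolvN : Group.IsSolvable N :=
    Group.isSolvable_of_isSolvable_injective (Subgroup.inclusion_injective hNS)
  have hnt : Nontrivial N := ⟨⟨⟨n, hnN⟩, 1, fun h => hn1 (congrArg Subtype.val h)⟩⟩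
  have h2 : ⁅N, N⁆ = ⊥ := by
    by_contra hne
    have h3 : ⁅N, N⁆ = N := hmin _ inferInstance (Subgroup.commutator_le_left N N) hne
    have h4 := Group.IsSolvable.commutator_lt_top_of_nontrivial N
    have h5 : (commutator N).map N.subtype = N := by
      rw [Subgroup.map_subtype_commutator, h3]
    apply h4.ne
    rw [eq_top_iff]
    intro x _
    have h6 : (x : G) ∈ (commutator N).map N.subtype := by rw [h5]; exact x.2
    obtain ⟨y, hy, hyx⟩ := h6
    have : y = x := Subtype.ext hyx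
    rwa [← this]
  rw [Subgroup.commutator_eq_bot_iff_le_centralizer] at h2
  intro a ha b hb
  exact ((Subgroup.mem_centralizer_iff.mp (h2 ha)) b hb).symm

/-- Elements of `p`-power order in a group of order prime to `p` are trivial. -/
theorem eq_one_of_pow_of_not_dvd [Finite G] [Fact p.Prime] (N : Subgroup G) (hN : ¬ p ∣ Nat.card N) (n : G)
    (hn : n ∈ N) (k : ℕ) (hk : n ^ p ^ k = 1) : n = 1 := by
  rw [← orderOf_eq_one_iff]
  have h1 : orderOf n ∣ p ^ k := orderOf_dvd_of_pow_eq_one hk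
  have h2 : orderOf n ∣ Nat.card N := by
    have := orderOf_dvd_natCard (⟨n, hn⟩ : N)
    rwa [Subgroup.orderOf_mk] at this
  have h3 : Nat.Coprime (p ^ k) (Nat.card N) :=
    Nat.Coprime.pow_left k ((Nat.Prime.coprime_iff_not_dvd Fact.out).mpr hN)
  exact Nat.eq_one_of_dvd_coprimes h3 h1 h2

/-- The setting `R = N P`, Frattini. -/
theorem exists_sylow_data [Finite G] [Fact p.Prime] (N R : Subgroup G) [N.Normal] [R.Normal] (hNR : N ≤ R)
    (hRN : ∀ r ∈ R, ∃ k : ℕ, r ^ p ^ k ∈ N) (u : G) (hu : u ∈ R) (hup : ∃ k : ℕ, u ^ p ^ k = 1) :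
    ∃ P : Subgroup G, IsPGroup p P ∧ P ≤ R ∧ u ∈ P ∧ (∀ r ∈ R, ∃ n ∈ N, ∃ y ∈ P, r = n * y) ∧
      (∀ g : G, ∃ n ∈ N, ∃ h ∈ Subgroup.normalizer (P : Set G), g = n * h) := by
  classical
  have hpp : p.Prime := Fact.out
  have hz : IsPGroup p (Subgroup.zpowers (⟨u, hu⟩ : R)) := by
    obtain ⟨k, hk⟩ := hup
    have h1 : orderOf (⟨u, hu⟩ : R) ∣ p ^ k := by
      apply orderOf_dvd_of_pow_eq_one
      apply Subtype.ext
      exact hk
    obtain ⟨j, -, hj⟩ := (Nat.dvd_prime_pow hpp).mp h1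
    exact IsPGroup.of_card (n := j) (by rw [Nat.card_zpowers, hj])
  obtain ⟨P0, hP0⟩ := hz.exists_le_sylow
  have hNR : (N.subgroupOf R).Normal := inferInstance
  have hq : IsPGroup p (R ⧸ N.subgroupOf R) := by
    intro x
    obtain ⟨r, rfl⟩ := QuotientGroup.mk_surjective x
    obtain ⟨k, hk⟩ := hRN r r.2
    refine ⟨k, ?_⟩
    rw [← QuotientGroup.mk_pow, QuotientGroup.eq_one_iff, Subgroup.mem_subgroupOf]
    exact hk
  obtain ⟨a, ha⟩ := hq.exists_card_eq
  have hW : N.subgroupOf R ⊔ (P0 : Subgroup R) = ⊤ := by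
    rw [← Subgroup.index_eq_one]
    have h1 : (N.subgroupOf R ⊔ (P0 : Subgroup R)).index ∣ p ^ a := by
      rw [← ha, ← Subgroup.index_eq_card]
      exact Subgroup.index_dvd_of_le le_sup_left
    have h2 : (N.subgroupOf R ⊔ (P0 : Subgroup R)).index ∣ (P0 : Subgroup R).index :=
      Subgroup.index_dvd_of_le le_sup_right
    obtain ⟨b, -, hb⟩ := (Nat.dvd_prime_pow hpp).mp h1
    rcases Nat.eq_zero_or_pos b with h0 | h0
    · rw [hb, h0, pow_zero]
    · exfalso
      apply P0.not_dvd_index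
      refine dvd_trans ?_ h2
      rw [hb]
      exact dvd_pow_self p h0.ne'
  have hdec : ∀ r ∈ R, ∃ n ∈ N, ∃ y ∈ (P0 : Subgroup R).map R.subtype, r = n * y := by
    intro r hr
    have h1 : (⟨r, hr⟩ : R) ∈ N.subgroupOf R ⊔ (P0 : Subgroup R) := by rw [hW]; trivial
    rw [Subgroup.mem_sup_of_normal_left] at h1
    obtain ⟨n, hn, y, hy, hny⟩ := h1
    refine ⟨n, Subgroup.mem_subgroupOf.mp hn, y, Subgroup.mem_map_of_mem _ hy, ?_⟩
    exact (congrArg Subtype.val hny).symm
  refine ⟨(P0 : Subgroup R).map R.subtype, P0.isPGroup'.map _, Subgroup.map_subtype_le _,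
    ⟨⟨u, hu⟩, hP0 (Subgroup.mem_zpowers _), rfl⟩, hdec, ?_⟩
  intro g
  have h1 : g ∈ Subgroup.normalizer (((P0 : Subgroup R).map R.subtype : Subgroup G) : Set G) ⊔ R := by
    rw [Sylow.normalizer_sup_eq_top P0]; trivial
  rw [Subgroup.mem_sup_of_normal_right] at h1
  obtain ⟨h, hh, r, hr, rfl⟩ := h1
  obtain ⟨n, hn, y, hy, rfl⟩ := hdec r hr
  refine ⟨h * n * h⁻¹, ‹N.Normal›.conj_mem n hn h, h * y,
    Subgroup.mul_mem _ hh (Subgroup.le_normalizer hy), by group⟩

theorem core [Finite G] [Fact p.Prime] {S K U : Subgroup G} {T : Set G} (h : Hyp p G S K U T)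
    (hno : ∀ M : Subgroup G, M.Normal → M ≤ U → IsPGroup p M → M = ⊥)
    (N : Subgroup G) [hN : N.Normal] (hNU : N ≤ U)
    (hmin : ∀ M : Subgroup G, M.Normal → M ≤ N → M ≠ ⊥ → M = N)
    (hc : Concl p (G ⧸ N) (U.map (QuotientGroup.mk' N))) :
    ∀ u ∈ U, (∃ k : ℕ, u ^ p ^ k = 1) → u = 1 := by
  classical
  have hpp : p.Prime := Fact.out
  obtain ⟨Qb, hQn, hQp, hQU, hQall⟩ := hc
  have nS := h.nS
  have nK := h.nK
  have nU := h.nU
  have hpS : ∀ g : G, ∀ k : ℕ, g ^ p ^ k = 1 → g ∈ S := fun g k hg =>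
    mem_of_pow_eq_one S h.idx g k hg
  have hab := comm_of_minimal S N h.solv hmin
  -- `N` is a `p'`-group
  have hNp : ¬ p ∣ Nat.card N := by
    intro hdvd
    obtain ⟨x, hx⟩ := exists_prime_orderOf_dvd_card' p hdvd
    have hx1 : (x : G) ≠ 1 := by
      intro h1
      have : x = 1 := Subtype.ext h1
      rw [this, orderOf_one] at hx
      exact hpp.one_lt.ne hx
    have hxp : (x : G) ^ p = 1 := by
      have := pow_orderOf_eq_one x
      rw [hx] at this
      exact congrArg Subtype.val this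
    have hcomm := hab ⟨x, x.2, hx1, hpS x 1 (by rw [pow_one]; exact hxp)⟩
    let M : Subgroup G :=
      { carrier := {n | n ∈ N ∧ n ^ p = 1}
        mul_mem' := by
          rintro a b ⟨ha, ha'⟩ ⟨hb, hb'⟩
          refine ⟨N.mul_mem ha hb, ?_⟩
          have : Commute a b := hcomm a ha b hb
          rw [this.mul_pow, ha', hb', one_mul]
        one_mem' := ⟨N.one_mem, one_pow _⟩
        inv_mem' := by
          rintro a ⟨ha, ha'⟩
          exact ⟨N.inv_mem ha, by rw [inv_pow, ha', inv_one]⟩ }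
    have hMn : M.Normal := by
      refine ⟨fun n hn g => ⟨hN.conj_mem n hn.1 g, ?_⟩⟩
      rw [conj_pow, hn.2]; group
    have hMp : IsPGroup p M := by
      rintro ⟨n, hn⟩
      exact ⟨1, Subtype.ext (by rw [pow_one]; exact hn.2)⟩
    have hM := hno M hMn (fun n hn => hNU hn.1) hMp
    have : (x : G) ∈ M := ⟨x.2, hxp⟩
    rw [hM, Subgroup.mem_bot] at this
    exact hx1 this
  have hNp' := eq_one_of_pow_of_not_dvd N hNp
  intro u hu hup
  by_contra hu1
  -- the subgroup `R`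
  have hRn : (Qb.comap (QuotientGroup.mk' N)).Normal := hQn.comap _
  have hNR : N ≤ Qb.comap (QuotientGroup.mk' N) := by
    intro n hn
    rw [Subgroup.mem_comap, QuotientGroup.mk'_apply, (QuotientGroup.eq_one_iff n).mpr hn]
    exact Qb.one_mem
  have hRU : Qb.comap (QuotientGroup.mk' N) ≤ U := by
    intro g hg
    obtain ⟨v, hv, hvg⟩ := hQU (Subgroup.mem_comap.mp hg)
    rw [QuotientGroup.mk'_apply, QuotientGroup.mk'_apply, QuotientGroup.eq] at hvg
    have : g = v * (v⁻¹ * g) := by group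
    rw [this]
    exact U.mul_mem hv (hNU hvg)
  have hRN : ∀ r ∈ Qb.comap (QuotientGroup.mk' N), ∃ k : ℕ, r ^ p ^ k ∈ N := by
    intro r hr
    obtain ⟨k, hk⟩ := hQp ⟨QuotientGroup.mk' N r, Subgroup.mem_comap.mp hr⟩
    refine ⟨k, ?_⟩
    have h2 : (QuotientGroup.mk' N r) ^ p ^ k = 1 := congrArg Subtype.val hk
    rw [← map_pow, QuotientGroup.mk'_apply, QuotientGroup.eq_one_iff] at h2
    exact h2
  have huR : u ∈ Qb.comap (QuotientGroup.mk' N) := by
    obtain ⟨k, hk⟩ := hup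
    exact hQall _ (Subgroup.mem_map_of_mem _ hu) ⟨k, by rw [← map_pow, hk, map_one]⟩
  obtain ⟨P, hPp, hPR, huP, hdec, hfr⟩ :=
    exists_sylow_data N (Qb.comap (QuotientGroup.mk' N)) hNR hRN u huR hup
  generalize Qb.comap (QuotientGroup.mk' N) = R at *
  have hPpow : ∀ y ∈ P, ∃ k : ℕ, y ^ p ^ k = 1 := by
    intro y hy
    obtain ⟨k, hk⟩ := hPp ⟨y, hy⟩
    exact ⟨k, congrArg Subtype.val hk⟩
  have hNP : ∀ g ∈ N, g ∈ P → g = 1 := by
    intro g hg hgP
    obtain ⟨k, hk⟩ := hPpow g hgP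
    exact hNp' g hg k hk
  have hnorm : ∀ x ∈ Subgroup.normalizer (P : Set G), ∀ y ∈ P, x * y * x⁻¹ ∈ P ∧ x⁻¹ * y * x ∈ P := by
    intro x hx y hy
    refine ⟨(Subgroup.mem_normalizer_iff.mp hx y).mp hy, ?_⟩
    have := (Subgroup.mem_normalizer_iff.mp (Subgroup.inv_mem _ hx) y).mp hy
    rwa [inv_inv] at this
  have hnormal_of : ∀ M : Subgroup G, (∀ n ∈ N, ∀ m ∈ M, n * m * n⁻¹ ∈ M) →
      (∀ x ∈ Subgroup.normalizer (P : Set G), ∀ m ∈ M, x * m * x⁻¹ ∈ M) → M.Normal := by
    intro M h1 h2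
    refine ⟨fun m hm g => ?_⟩
    obtain ⟨n, hn, x, hx, rfl⟩ := hfr g
    have : n * x * m * (n * x)⁻¹ = n * (x * m * x⁻¹) * n⁻¹ := by group
    rw [this]
    exact h1 n hn _ (h2 x hx m hm)
  by_cases hcent : ∀ n ∈ N, ∀ x ∈ P, x * n * x⁻¹ = n
  · have hPn : P.Normal := by
      apply hnormal_of P
      · intro n hn y hy
        have h1 := hcent n hn y hy
        have h2 : n * y * n⁻¹ = y := by
          have : y * n = n * y := by rw [mul_inv_eq_iff_eq_mul] at h1; exact h1
          rw [← this]; group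
        rw [h2]; exact hy
      · intro x hx y hy
        exact (hnorm x hx y hy).1
    have := hno P hPn (hPR.trans hRU) hPp
    rw [this, Subgroup.mem_bot] at huP
    exact hu1 huP
  · push Not at hcent
    obtain ⟨n0, hn0, x0, hx0, hne0⟩ := hcent
    have hPS : ∀ y ∈ P, y ∈ S := by
      intro y hy
      obtain ⟨k, hk⟩ := hPpow y hy
      exact hpS y k hk
    have hcomm := hab ⟨x0 * n0 * x0⁻¹ * n0⁻¹,
      N.mul_mem (hN.conj_mem n0 hn0 x0) (N.inv_mem hn0),
      fun h1 => hne0 (mul_inv_eq_one.mp h1), by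
        have e : x0 * n0 * x0⁻¹ * n0⁻¹ = x0 * (n0 * x0⁻¹ * n0⁻¹) := by group
        rw [e]
        exact S.mul_mem (hPS x0 hx0) (nS.conj_mem _ (S.inv_mem (hPS x0 hx0)) n0)⟩
    -- `C_N(P) = 1`
    have hCn : (N ⊓ Subgroup.centralizer (P : Set G)).Normal := by
      apply hnormal_of
      · intro n hn m hm
        have h1 : n * m = m * n := hcomm n hn m hm.1
        have h2 : n * m * n⁻¹ = m := by rw [h1]; group
        rw [h2]; exact hm
      · intro x hx m hm
        refine Subgroup.mem_inf.mpr ⟨hN.conj_mem m hm.1 x, ?_⟩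
        rw [Subgroup.mem_centralizer_iff]
        intro y hy
        have h1 := (Subgroup.mem_centralizer_iff.mp hm.2) (x⁻¹ * y * x) (hnorm x hx y hy).2
        have e1 : y * (x * m * x⁻¹) = x * ((x⁻¹ * y * x) * m) * x⁻¹ := by group
        rw [e1, h1]; group
    have hC : N ⊓ Subgroup.centralizer (P : Set G) = ⊥ := by
      by_contra hC
      have h1 := hmin _ hCn inf_le_left hC
      have h2 : n0 ∈ N ⊓ Subgroup.centralizer (P : Set G) := by rw [h1]; exact hn0
      have h3 := (Subgroup.mem_centralizer_iff.mp h2.2) x0 hx0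
      apply hne0
      rw [h3]; group
    have hfix : ∀ n ∈ N, (∀ x ∈ P, x * n * x⁻¹ = n) → n = 1 := by
      intro n hn hx
      have h1 : n ∈ N ⊓ Subgroup.centralizer (P : Set G) := by
        refine Subgroup.mem_inf.mpr ⟨hn, ?_⟩
        rw [Subgroup.mem_centralizer_iff]
        intro y hy
        have := hx y hy
        rw [mul_inv_eq_iff_eq_mul] at this
        exact this
      rw [hC, Subgroup.mem_bot] at h1
      exact h1
    have hinf : N ⊓ Subgroup.normalizer (P : Set G) = ⊥ := by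
      rw [eq_bot_iff]
      intro n hn
      rw [Subgroup.mem_bot]
      apply hfix n hn.1
      intro x hx
      have h1 : x * n * x⁻¹ * n⁻¹ = 1 := by
        apply hNP
        · exact N.mul_mem (hN.conj_mem n hn.1 x) (N.inv_mem hn.1)
        · have e : x * n * x⁻¹ * n⁻¹ = x * (n * x⁻¹ * n⁻¹) := by group
          rw [e]
          exact P.mul_mem hx (hnorm n hn.2 _ (P.inv_mem hx)).1
      exact mul_inv_eq_one.mp h1
    have hsup : N ⊔ Subgroup.normalizer (P : Set G) = ⊤ := by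
      rw [eq_top_iff]
      intro g _
      obtain ⟨n, hn, x, hx, rfl⟩ := hfr g
      exact Subgroup.mul_mem_sup hn hx
    have hnoreal : ∀ n ∈ N, IsConj n n⁻¹ → n = 1 := by
      intro n hn hr
      by_contra hn1
      obtain ⟨χ, hχr, m, hm, hne⟩ := exists_real_irr_not_ker N
        (fun x hx => lift_real_of_compl N _ hsup hinf x hx) ⟨n, hn, hn1, hr⟩
      exact h.real χ hχr (dvd_degree_of_fixed_point_free p N P hPp hfix χ.2 ⟨m, hm, hne⟩)
    have h2c : ∀ (t : G) (k : ℕ), t ^ 2 ^ k = 1 → ∀ n ∈ N, t * n * t⁻¹ = n := by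
      intro t k ht
      by_contra hcon
      push Not at hcon
      obtain ⟨m, hm, hm1, hmr⟩ := exists_real_of_two_element N t k ht hcon
      exact hm1 (hnoreal m hm hmr)
    have hKc : K ≤ Subgroup.centralizer (N : Set G) := by
      rw [h.gen, Subgroup.closure_le]
      intro t ht
      obtain ⟨k, hk⟩ := h.two t ht
      rw [SetLike.mem_coe, Subgroup.mem_centralizer_iff]
      intro n hn
      have := h2c t k hk n hn
      rw [mul_inv_eq_iff_eq_mul] at this
      exact this.symm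
    have hodd : ∀ (k : ℕ), ∀ c ∈ N, c ^ 2 ^ k = 1 → c = 1 := by
      intro k
      induction k with
      | zero => intro c _ hc; simpa using hc
      | succ k ih =>
        intro c hc hck
        apply ih c hc
        apply hnoreal _ (N.pow_mem hc _)
        have h1 : (c ^ 2 ^ k)⁻¹ = c ^ 2 ^ k := by
          rw [inv_eq_iff_mul_eq_one, ← pow_add, ← mul_two, ← pow_succ]
          exact hck
        rw [h1]
    have hNK : N ≤ K := by
      have h1 : (N ⊓ K).Normal := inferInstance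
      by_cases h2 : N ⊓ K = ⊥
      · exfalso
        obtain ⟨k, hk⟩ := h.pq n0 (hNU hn0)
        have h3 : n0 ^ p ^ k ∈ N ⊓ K := ⟨N.pow_mem hn0 _, hk⟩
        rw [h2, Subgroup.mem_bot] at h3
        have h4 := hNp' n0 hn0 k h3
        apply hne0
        rw [h4]; group
      · have h3 := hmin _ h1 inf_le_left h2
        rw [← h3]; exact inf_le_right
    have hP0n : (P ⊓ Subgroup.centralizer (N : Set G)).Normal := by
      apply hnormal_of
      · intro n hn m hm
        have h1 := (Subgroup.mem_centralizer_iff.mp hm.2) n hn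
        have h2 : n * m * n⁻¹ = m := by rw [h1]; group
        rw [h2]; exact hm
      · intro x hx m hm
        refine Subgroup.mem_inf.mpr ⟨(hnorm x hx m hm.1).1, ?_⟩
        rw [Subgroup.mem_centralizer_iff]
        intro n hn
        have hn' : x⁻¹ * n * x ∈ N := by
          have := hN.conj_mem n hn x⁻¹
          rwa [inv_inv] at this
        have h1 := (Subgroup.mem_centralizer_iff.mp hm.2) (x⁻¹ * n * x) hn'
        have e1 : n * (x * m * x⁻¹) = x * ((x⁻¹ * n * x) * m) * x⁻¹ := by group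
        rw [e1, h1]; group
    have hP0 : P ⊓ Subgroup.centralizer (N : Set G) = ⊥ :=
      hno _ hP0n (inf_le_left.trans (hPR.trans hRU)) (hPp.to_le inf_le_left)
    -- `x0` centralizes `K`
    have hfin : K ≤ Subgroup.centralizer ({x0} : Set G) := by
      rw [h.gen, Subgroup.closure_le]
      intro t ht
      have htK : t ∈ K := by rw [h.gen]; exact Subgroup.subset_closure ht
      obtain ⟨k, hk⟩ := h.two t ht
      have hcK : x0 * t * x0⁻¹ * t⁻¹ ∈ K := K.mul_mem (nK.conj_mem t htK x0) (K.inv_mem htK)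
      have hcR : x0 * t * x0⁻¹ * t⁻¹ ∈ R := by
        have e : x0 * t * x0⁻¹ * t⁻¹ = x0 * (t * x0⁻¹ * t⁻¹) := by group
        rw [e]
        exact R.mul_mem (hPR hx0) (hRn.conj_mem _ (R.inv_mem (hPR hx0)) t)
      obtain ⟨n, hn, y, hy, hny⟩ := hdec _ hcR
      have hyK : y ∈ K := by
        have e : y = n⁻¹ * (x0 * t * x0⁻¹ * t⁻¹) := by rw [hny]; group
        rw [e]
        exact K.mul_mem (K.inv_mem (hNK hn)) hcK
      have hy1 : y = 1 := by
        have : y ∈ P ⊓ Subgroup.centralizer (N : Set G) := ⟨hy, hKc hyK⟩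
        rwa [hP0, Subgroup.mem_bot] at this
      rw [hy1, mul_one] at hny
      have hct : Commute n t := (Subgroup.mem_centralizer_iff.mp (hKc htK)) n hn
      have h1 : x0 * t * x0⁻¹ = n * t := by rw [← hny]; group
      have h2 : n ^ 2 ^ k = 1 := by
        have h3 : (x0 * t * x0⁻¹) ^ 2 ^ k = 1 := by rw [conj_pow, hk]; group
        rw [h1, hct.mul_pow, hk, mul_one] at h3
        exact h3
      have h4 := hodd k n hn h2
      rw [h4, one_mul] at h1
      rw [SetLike.mem_coe, Subgroup.mem_centralizer_singleton_iff]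
      rw [mul_inv_eq_iff_eq_mul] at h1
      exact h1.symm
    have h5 := hfin (hNK hn0)
    rw [Subgroup.mem_centralizer_singleton_iff] at h5
    apply hne0
    rw [← h5]; group

theorem card_quot_lt [Finite G] (M : Subgroup G) (hM : M ≠ ⊥) : Nat.card (G ⧸ M) < Nat.card G := by
  have h1 := Subgroup.card_eq_card_quotient_mul_card_subgroup M
  have h2 : 1 < Nat.card M := (Subgroup.one_lt_card_iff_ne_bot M).mpr hM
  have h3 : 0 < Nat.card (G ⧸ M) := Nat.card_pos
  rw [h1]
  nlinarith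

theorem exists_minimal_normal [Finite G] (U : Subgroup G) (hUn : U.Normal) (hU : U ≠ ⊥) :
    ∃ N : Subgroup G, N.Normal ∧ N ≤ U ∧ N ≠ ⊥ ∧
      ∀ M : Subgroup G, M.Normal → M ≤ N → M ≠ ⊥ → M = N := by
  classical
  have hex : ∃ c : ℕ, ∃ N : Subgroup G, N.Normal ∧ N ≤ U ∧ N ≠ ⊥ ∧ Nat.card N = c :=
    ⟨_, U, hUn, le_rfl, hU, rfl⟩
  obtain ⟨N, hNn, hNU, hN1, hNc⟩ := Nat.find_spec hex
  refine ⟨N, hNn, hNU, hN1, ?_⟩
  intro M hMn hMN hM1
  apply Subgroup.eq_of_le_of_card_ge hMN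
  rw [hNc]
  exact Nat.find_min' hex ⟨M, hMn, hMN.trans hNU, hM1, rfl⟩

universe u

theorem main [Fact p.Prime] : ∀ (n : ℕ) (G : Type u) [Group G] [Finite G], Nat.card G ≤ n →
    ∀ (S K U : Subgroup G) (T : Set G), Hyp p G S K U T → Concl p G U := by
  intro n
  induction n with
  | zero =>
    intro G _ _ hcard
    have : 0 < Nat.card G := Nat.card_pos
    omega
  | succ n ih =>
    intro G _ _ hcard S K U T h
    have nU := h.nU
    by_cases h1 : ∃ M : Subgroup G, M.Normal ∧ M ≤ U ∧ IsPGroup p M ∧ M ≠ ⊥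
    · obtain ⟨M, hMn, hMU, hMp, hM1⟩ := h1
      apply Concl.lift M hMU hMp
      have := card_quot_lt M hM1
      exact ih (G ⧸ M) (by omega) _ _ _ _ (h.quot M)
    · have hno : ∀ M : Subgroup G, M.Normal → M ≤ U → IsPGroup p M → M = ⊥ := by
        intro M a b c
        by_contra d
        exact h1 ⟨M, a, b, c, d⟩
      suffices hs : ∀ u ∈ U, (∃ k : ℕ, u ^ p ^ k = 1) → u = 1 by
        exact ⟨⊥, inferInstance, IsPGroup.of_bot, bot_le, fun u hu hk => by
          rw [Subgroup.mem_bot]; exact hs u hu hk⟩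
      by_cases hU : U = ⊥
      · intro u hu _
        rw [hU, Subgroup.mem_bot] at hu
        exact hu
      · obtain ⟨N, hNn, hNU, hN1, hmin⟩ := exists_minimal_normal U nU hU
        have := card_quot_lt N hN1
        exact core h hno N hNU hmin (ih (G ⧸ N) (by omega) _ _ _ _ (h.quot N))

/-- Final form. -/
theorem sylow_normal {G : Type u} [Group G] [Finite G] [Fact p.Prime]
    (hsolv : Group.IsSolvable ↥(Subgroup.closure {g : G | ∃ k : ℕ, orderOf g = p ^ k}))
    (hreal : ∀ χ : Cfsg.IrrCharacter G, (∀ g : G, ((χ : G → ℂ) g).im = 0) →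
      ¬ p ∣ Cfsg.charDegree (χ : G → ℂ))
    (U : Subgroup G) (hU : U.Normal)
    (hKU : (Subgroup.closure {g : G | ∃ k : ℕ, orderOf g = 2 ^ k}) ≤ U)
    (hUp : ∃ a : ℕ, (Subgroup.closure {g : G | ∃ k : ℕ, orderOf g = 2 ^ k}).relIndex U = p ^ a)
    (Q : Sylow p ↥U) : (Q : Subgroup ↥U).Normal := by
  classical
  have hconj : ∀ (q : ℕ), ∀ t ∈ {g : G | ∃ k : ℕ, orderOf g = q ^ k}, ∀ g : G,
      g * t * g⁻¹ ∈ {g : G | ∃ k : ℕ, orderOf g = q ^ k} := by
    rintro q t ⟨k, hk⟩ g
    refine ⟨k, ?_⟩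
    rw [← hk]
    exact orderOf_injective (MulAut.conj g).toMonoidHom (MulAut.conj g).injective t
  have nS := Cfsg.Agent.Lib.Helper57SPE.normal_closure_of_conj_mem _ (hconj p)
  have nK := Cfsg.Agent.Lib.Helper57SPE.normal_closure_of_conj_mem _ (hconj 2)
  have hyp : Hyp p G (Subgroup.closure {g : G | ∃ k : ℕ, orderOf g = p ^ k})
      (Subgroup.closure {g : G | ∃ k : ℕ, orderOf g = 2 ^ k}) U
      {g : G | ∃ k : ℕ, orderOf g = 2 ^ k} :=
    { nS := nS
      nK := nK
      nU := hU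
      solv := hsolv
      idx := by
        intro hd
        obtain ⟨P⟩ : Nonempty (Sylow p G) := inferInstance
        have hle : (P : Subgroup G) ≤ Subgroup.closure {g : G | ∃ k : ℕ, orderOf g = p ^ k} := by
          intro x hx
          apply Subgroup.subset_closure
          obtain ⟨k, hk⟩ := (IsPGroup.iff_orderOf.mp P.isPGroup') ⟨x, hx⟩
          exact ⟨k, by rw [← hk, Subgroup.orderOf_mk]⟩
        exact P.not_dvd_index (hd.trans (Subgroup.index_dvd_of_le hle))
      two := by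
        rintro t ⟨k, hk⟩
        exact ⟨k, by rw [← hk]; exact pow_orderOf_eq_one t⟩
      gen := rfl
      le := hKU
      pq := by
        intro u hu
        obtain ⟨a, ha⟩ := hUp
        refine ⟨a, ?_⟩
        have h1 := Subgroup.pow_index_mem
          ((Subgroup.closure {g : G | ∃ k : ℕ, orderOf g = 2 ^ k}).subgroupOf U) (⟨u, hu⟩ : U)
        rw [Subgroup.mem_subgroupOf] at h1
        have h2 : ((Subgroup.closure {g : G | ∃ k : ℕ, orderOf g = 2 ^ k}).subgroupOf U).index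
            = p ^ a := ha
        rw [h2] at h1
        exact h1
      real := hreal }
  obtain ⟨Q0, hQ0n, hQ0p, hQ0U, hQ0all⟩ := main (p := p) (Nat.card G) G le_rfl _ _ _ _ hyp
  have h1 : (Q : Subgroup U) ≤ Q0.subgroupOf U := by
    intro x hx
    rw [Subgroup.mem_subgroupOf]
    apply hQ0all x x.2
    obtain ⟨k, hk⟩ := Q.isPGroup' ⟨x, hx⟩
    refine ⟨k, ?_⟩
    have h2 : x ^ p ^ k = 1 := congrArg Subtype.val hk
    exact congrArg Subtype.val h2
  have h2 : IsPGroup p (Q0.subgroupOf U) := hQ0p.comap_subtype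
  have h3 := Q.is_maximal' h2 h1
  rw [← h3]
  infer_instance

end Cfsg.Agent.Lib.Helper83RealP
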