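import Mathlib
import Cfsg.Prelude.Def_Blocks
import Cfsg.Agent.S4861

set_option autoImplicit false

/-!
# Project 4864 (RN), piece RedA: the normal subgroups `Q ≤ K` of `G`
-/

namespace Cfsg.Agent.Lib.H83RNRedA

theorem normal_closure_two {G : Type*} [Group G] :
    (Subgroup.closure {g : G | ∃ k : ℕ, orderOf g = 2 ^ k}).Normal := by
  refine ⟨fun n hn g => ?_⟩
  have hle : Subgroup.closure {g : G | ∃ k : ℕ, orderOf g = 2 ^ k} ≤
      (Subgroup.closure {g : G | ∃ k : ℕ, orderOf g = 2 ^ k}).comap (MulAut.conj g).toMonoidHom := by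
    rw [Subgroup.closure_le]
    rintro x ⟨k, hk⟩
    apply Subgroup.subset_closure
    refine ⟨k, ?_⟩
    rw [← hk]
    exact (MulAut.conj g).orderOf_eq x
  have := hle hn
  simpa using this

/-- `K := closure {2-elements}`, `Q :=` the image in `G` of the Sylow `p`-subgroup of `K`. -/
theorem redA {G : Type*} [Group G] [Finite G] (p : ℕ) [Fact p.Prime]
    (hsolv : Group.IsSolvable ↥(Subgroup.closure {g : G | ∃ k : ℕ, orderOf g = p ^ k}))
    (hreal : ∀ χ : Cfsg.IrrCharacter G, (∀ g : G, ((χ : G → ℂ) g).im = 0) →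
      ¬ p ∣ Cfsg.charDegree (χ : G → ℂ)) :
    ∃ Q K : Subgroup G, Q.Normal ∧ K.Normal ∧ Q ≤ K ∧ IsPGroup p Q ∧ ¬ p ∣ Q.relIndex K ∧
      Odd K.index := by
  set K := Subgroup.closure {g : G | ∃ k : ℕ, orderOf g = 2 ^ k} with hK
  have hKn : K.Normal := normal_closure_two
  let Q₀ : Sylow p K := default
  have hQ₀ : (Q₀ : Subgroup K).Normal := Cfsg.Agent.S4861.result p hsolv hreal Q₀
  have hchar : (Q₀ : Subgroup K).Characteristic := Sylow.characteristic_of_normal Q₀ hQ₀
  refine ⟨(Q₀ : Subgroup K).map K.subtype, K, ?_, hKn, Subgroup.map_subtype_le _, Q₀.2.map _, ?_, ?_⟩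
  · exact ConjAct.normal_of_characteristic_of_normal
  · have : ((Q₀ : Subgroup K).map K.subtype).relIndex K = (Q₀ : Subgroup K).index := by
      rw [Subgroup.relIndex, Subgroup.subgroupOf,
        Subgroup.comap_map_eq_self_of_injective K.subtype_injective]
    rw [this]
    exact Sylow.not_dvd_index Q₀
  · have : Fact (Nat.Prime 2) := ⟨Nat.prime_two⟩
    let S : Sylow 2 G := default
    have hSK : (S : Subgroup G) ≤ K := by
      intro s hs
      apply Subgroup.subset_closure
      obtain ⟨k, hk⟩ := (IsPGroup.iff_orderOf.1 S.2) ⟨s, hs⟩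
      refine ⟨k, ?_⟩
      rw [← hk, Subgroup.orderOf_mk]
    have h1 : K.index ∣ (S : Subgroup G).index := Subgroup.index_dvd_of_le hSK
    have h2 : ¬ 2 ∣ (S : Subgroup G).index := Sylow.not_dvd_index S
    rw [← Nat.not_even_iff_odd, even_iff_two_dvd]
    exact fun h => h2 (h.trans h1)

end Cfsg.Agent.Lib.H83RNRedA
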