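import Mathlib

set_option autoImplicit false

/-!
# Project 4864 (RN), piece RedL (PURE MATHLIB): lifting from `G ⧸ Q` to `G`
-/

namespace Cfsg.Agent.Lib.H83RNRedL

theorem le_sylow {G : Type*} [Group G] [Finite G] (p : ℕ) [Fact p.Prime] (Q : Subgroup G) [Q.Normal]
    (hQ : IsPGroup p Q) (P : Sylow p G) : Q ≤ P :=
  hQ.le_sylow_of_normal P

/-- lifting -/
theorem lift {G : Type*} [Group G] [Finite G] (p : ℕ) [Fact p.Prime] (Q : Subgroup G) [Q.Normal]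
    (hQ : IsPGroup p Q) (P : Sylow p G) (x : G) (y' : G ⧸ Q) (hy : IsConj (x : G ⧸ Q) y')
    (hcen : ∀ u ∈ P, (u : G ⧸ Q) * y' = y' * (u : G ⧸ Q)) :
    ∃ y ∈ Subgroup.normalizer ((P : Subgroup G) : Set G), IsConj x y := by
  have hQP := le_sylow p Q hQ P
  obtain ⟨c, hc⟩ := isConj_iff.1 hy
  obtain ⟨g, rfl⟩ := QuotientGroup.mk_surjective c
  set y := g * x * g⁻¹ with hydef
  have hyy : (y : G ⧸ Q) = y' := by
    rw [← hc, hydef]
    simp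
  have h1 : ∀ u ∈ P, y * u * y⁻¹ ∈ P := by
    intro u hu
    have h2 := hcen u hu
    rw [← hyy] at h2
    have h3 : ((u⁻¹ * (y * u * y⁻¹) : G) : G ⧸ Q) = 1 := by
      have : ((u⁻¹ * (y * u * y⁻¹) : G) : G ⧸ Q)
          = (u : G ⧸ Q)⁻¹ * ((y : G ⧸ Q) * (u : G ⧸ Q)) * (y : G ⧸ Q)⁻¹ := by
        simp [mul_assoc]
      rw [this, ← h2]
      group
    have h4 : u⁻¹ * (y * u * y⁻¹) ∈ Q := (QuotientGroup.eq_one_iff _).1 h3
    have h5 := (P : Subgroup G).mul_mem hu (hQP h4)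
    rwa [mul_inv_cancel_left] at h5
  have h1' : ∀ u ∈ P, y⁻¹ * u * y ∈ P := by
    intro u hu
    have h2 := hcen u hu
    rw [← hyy] at h2
    have h3 : ((u⁻¹ * (y⁻¹ * u * y) : G) : G ⧸ Q) = 1 := by
      have : ((u⁻¹ * (y⁻¹ * u * y) : G) : G ⧸ Q)
          = (u : G ⧸ Q)⁻¹ * (y : G ⧸ Q)⁻¹ * ((u : G ⧸ Q) * (y : G ⧸ Q)) := by
        simp [mul_assoc]
      rw [this, h2]
      group
    have h4 : u⁻¹ * (y⁻¹ * u * y) ∈ Q := (QuotientGroup.eq_one_iff _).1 h3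
    have h5 := (P : Subgroup G).mul_mem hu (hQP h4)
    rwa [mul_inv_cancel_left] at h5
  refine ⟨y, ?_, isConj_iff.2 ⟨g, rfl⟩⟩
  rw [Subgroup.mem_normalizer_iff]
  intro u
  constructor
  · exact h1 u
  · intro hu
    have := h1' _ hu
    have e : y⁻¹ * (y * u * y⁻¹) * y = u := by group
    rwa [e] at this

end Cfsg.Agent.Lib.H83RNRedL
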