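import Mathlib
import Cfsg.Prelude.Def_Blocks
import Cfsg.Agent.Lib.Helper82Quot

set_option autoImplicit false

/-!
# Project 4864 (RN), piece RedQ: the hypotheses pass to `G ⧸ Q`
-/

namespace Cfsg.Agent.Lib.H83RNRedQ

/-- PURE MATHLIB. -/
theorem index_map {G : Type*} [Group G] [Finite G] (Q K : Subgroup G) [Q.Normal] (hQK : Q ≤ K) :
    (K.map (QuotientGroup.mk' Q)).index = K.index := by
  rw [← Subgroup.index_comap_of_surjective _ (QuotientGroup.mk'_surjective Q),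
    Subgroup.comap_map_eq, QuotientGroup.ker_mk', sup_eq_left.mpr hQK]

/-- PURE MATHLIB.  `card (K/Q) = |K : Q|`. -/
theorem card_map {G : Type*} [Group G] [Finite G] (Q K : Subgroup G) [Q.Normal] (hQK : Q ≤ K) :
    Nat.card (K.map (QuotientGroup.mk' Q)) = Q.relIndex K := by
  have h1 := (K.map (QuotientGroup.mk' Q)).card_mul_index
  rw [index_map Q K hQK] at h1
  have h2 : Nat.card (G ⧸ Q) = Q.index := (Subgroup.index_eq_card Q).symm
  have h3 := Subgroup.relIndex_mul_index hQK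
  rw [h2, ← h3] at h1
  have hpos : 0 < K.index := Nat.pos_of_ne_zero (Subgroup.index_ne_zero_of_finite)
  exact Nat.eq_of_mul_eq_mul_right hpos h1

/-- Inflation. -/
theorem real_quot {G : Type*} [Group G] [Finite G] (p : ℕ) (Q : Subgroup G) [Q.Normal]
    (hreal : ∀ χ : Cfsg.IrrCharacter G, (∀ g : G, ((χ : G → ℂ) g).im = 0) →
      ¬ p ∣ Cfsg.charDegree (χ : G → ℂ)) :
    ∀ χ : Cfsg.IrrCharacter (G ⧸ Q), (∀ g : G ⧸ Q, ((χ : G ⧸ Q → ℂ) g).im = 0) →
      ¬ p ∣ Cfsg.charDegree (χ : G ⧸ Q → ℂ) := by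
  intro χ hχ
  have := hreal (Cfsg.Agent.Lib.Helper82Quot.inflate Q χ) (fun g => by
    rw [Cfsg.Agent.Lib.Helper82Quot.inflate_apply]
    exact hχ _)
  rw [Cfsg.charDegree, Cfsg.Agent.Lib.Helper82Quot.inflate_apply] at this
  exact this

end Cfsg.Agent.Lib.H83RNRedQ
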