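import Mathlib
import Cfsg.Agent.Lib.H83RNDefs
import Cfsg.Agent.Lib.H83RNBrauer
import Cfsg.Agent.Lib.H83RNGlIrr
import Cfsg.Agent.Lib.H83RNGlCl

set_option autoImplicit false

/-!
# Project 4864 (RN), assembly StepB
-/

namespace Cfsg.Agent.Lib.H83RNStepB

open Cfsg.Agent.Lib.H83RNDefs Cfsg.Agent.Lib.Helper77Glaub Cfsg.Agent.Lib.Helper77Glaub2

theorem stepB {G S T : Type*} [Group G] [Finite G] [Group S] [Group T] (p : ℕ) [Fact p.Prime]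
    (hT : IsPGroup p T) (φ : S →* MulAut G) (φT : T →* MulAut G)
    (hN : ∀ s t, ∃ t', φ s * φT t = φT t' * φ s) (hp : ¬ p ∣ Nat.card G) (s : S) (m : ℕ)
    (hm : Odd m) (hsm : ∃ c : G, (∀ t, φT t c = c) ∧ φ s ^ m = MulAut.conj c) :
    Nat.card {χ : Cfsg.IrrCharacter G // RI χ ∧ Inv φT χ.1 ∧ ∀ g, χ.1 (φ s g) = χ.1 g}
      = Nat.card {C : ConjClasses G // RC C ∧ InvC φT C ∧ clHom (φ s) C = C} := by
  have hab : ∀ c : fixSub φT, ((fixAct φ φT hN s c : fixSub φT) : G) = φ s (c : G) := fun c => rfl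
  rw [Cfsg.Agent.Lib.H83RNGlIrr.card_irr p hT φT hp (φ s) (fixAct φ φT hN s) hab (hN s),
    ← Cfsg.Agent.Lib.H83RNGlCl.card_cl p hT φT hp (φ s) (fixAct φ φT hN s) hab]
  apply Cfsg.Agent.Lib.H83RNBrauer.brauerReal _ m hm
  obtain ⟨c, hc, hcm⟩ := hsm
  refine ⟨⟨c, hc⟩, ?_⟩
  ext x
  rw [← map_pow]
  change φ (s ^ m) (x : G) = _
  rw [map_pow, hcm]
  rfl

end Cfsg.Agent.Lib.H83RNStepB
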