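import Mathlib

set_option autoImplicit false

/-! Vocabulary of project 4184 = CS (row S4184: centerless groups with the same class sizes as a group with
disconnected prime graph have the same order). -/

namespace Cfsg.Agent.Lib.H84CsDefs

/-- the size of the conjugacy class of `g` -/
noncomputable def idx {G : Type*} [Group G] (g : G) : ℕ := (Subgroup.centralizer ({g} : Set G)).index

/-- `n` and `m` have the same `a`-part for all `a ∈ S` -/
def Full (m : ℕ) (S : Set ℕ) (n : ℕ) : Prop := ∀ a ∈ S, n.factorization a = m.factorization a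

/-- the arithmetic of the set `N` of class sizes of a group of order `m` whose prime graph is disconnected:
`S`, `T` = the two parts of the set of prime divisors of `m` -/
structure Dat (N : Set ℕ) (m : ℕ) (S T : Set ℕ) : Prop where
  m_pos : m ≠ 0
  dvd : ∀ n ∈ N, n ∣ m
  prime_S : ∀ a ∈ S, a.Prime ∧ a ∣ m
  prime_T : ∀ b ∈ T, b.Prime ∧ b ∣ m
  cover : ∀ r, r.Prime → r ∣ m → r ∈ S ∨ r ∈ T
  disj : ∀ a ∈ S, a ∉ T
  neS : S.Nonempty
  neT : T.Nonempty
  alt : ∀ n ∈ N, n ≠ 1 → Full m S n ∨ Full m T n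
  excl : ∀ n ∈ N, ¬ (Full m S n ∧ Full m T n)
  exS : ∃ n ∈ N, Full m S n
  exT : ∃ n ∈ N, Full m T n

theorem Dat.symm {N : Set ℕ} {m : ℕ} {S T : Set ℕ} (h : Dat N m S T) : Dat N m T S where
  m_pos := h.m_pos
  dvd := h.dvd
  prime_S := h.prime_T
  prime_T := h.prime_S
  cover := fun r hr hrm => (h.cover r hr hrm).symm
  disj := fun a ha ha' => h.disj a ha' ha
  neS := h.neT
  neT := h.neS
  alt := fun n hn h1 => (h.alt n hn h1).symm
  excl := fun n hn h1 => h.excl n hn ⟨h1.2, h1.1⟩
  exS := h.exT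
  exT := h.exS

theorem card_cent_mul_idx {G : Type*} [Group G] (g : G) :
    Nat.card (Subgroup.centralizer ({g} : Set G)) * idx g = Nat.card G := Subgroup.card_mul_index _

theorem idx_dvd_card {G : Type*} [Group G] (g : G) : idx g ∣ Nat.card G := Subgroup.index_dvd_card _

theorem idx_ne_zero {G : Type*} [Group G] [Finite G] (g : G) : idx g ≠ 0 := Subgroup.index_ne_zero_of_finite

end Cfsg.Agent.Lib.H84CsDefs
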