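import Mathlib
import Cfsg.Agent.Lib.H84CsDefs

set_option autoImplicit false

namespace Cfsg.Agent.Lib.H84CsCop

open Cfsg.Agent.Lib.H84CsDefs

/-- PIECE Cop (25m, PURE MATHLIB).  If `r ∣ orderOf y` and `M` has no element of order `r * b` then `b ∤ |C_M(y)|`.
Proof.  Suppose `b ∣ |C|`, `C = centralizer {y}`.  Cauchy (`exists_prime_orderOf_dvd_card' b` with `Fact b.Prime`) gives `v : C` with `orderOf v = b`
(`Subgroup.orderOf_coe`).  `y' := y ^ (orderOf y / r)` has order `r` (`orderOf_pow_orderOf_div (orderOf_pos y).ne' hry`).  `v` commutes with `y`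
(`Subgroup.mem_centralizer_singleton_iff` / `Subgroup.mem_centralizer_iff`), hence with `y'` (`Commute.pow_left`/`pow_right`).
`Commute.orderOf_mul_eq_mul_orderOf_of_coprime` (`(Nat.coprime_primes hr hb).2 hrb`): `orderOf (y' * v) = r * b`. -/
theorem cent_coprime {M : Type*} [Group M] [Finite M] (y : M) (r b : ℕ) (hr : r.Prime) (hb : b.Prime) (hrb : r ≠ b)
    (hry : r ∣ orderOf y) (hno : ¬ ∃ x : M, orderOf x = r * b) :
    ¬ b ∣ Nat.card (Subgroup.centralizer ({y} : Set M)) := by
  intro hdvd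
  haveI : Fact b.Prime := ⟨hb⟩
  obtain ⟨v, hv⟩ := exists_prime_orderOf_dvd_card' b hdvd
  have hv' : orderOf (v : M) = b := by rw [Subgroup.orderOf_coe]; exact hv
  have hy' : orderOf (y ^ (orderOf y / r)) = r :=
    orderOf_pow_orderOf_div (orderOf_pos y).ne' hry
  have hcomm : Commute y (v : M) := by
    have := v.2
    rw [Subgroup.mem_centralizer_singleton_iff] at this
    exact this.symm
  have hcomm' : Commute (y ^ (orderOf y / r)) (v : M) := hcomm.pow_left _
  have hco : (orderOf (y ^ (orderOf y / r))).Coprime (orderOf (v : M)) := by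
    rw [hy', hv']
    exact (Nat.coprime_primes hr hb).2 hrb
  have := hcomm'.orderOf_mul_eq_mul_orderOf_of_coprime hco
  rw [hy', hv'] at this
  exact hno ⟨_, this⟩

end Cfsg.Agent.Lib.H84CsCop
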