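import Mathlib
import Cfsg.Agent.Lib.H84CsDefs

set_option autoImplicit false

namespace Cfsg.Agent.Lib.H84CsDvd

open Cfsg.Agent.Lib.H84CsDefs

theorem dvd_card {G : Type*} [Group G] [Finite G] {m : ℕ} {S T : Set ℕ}
    (h : Dat (Set.range (fun g : G => idx g)) m S T) : m ∣ Nat.card G := by
  rw [← Nat.factorization_le_iff_dvd h.m_pos Nat.card_pos.ne', Finsupp.le_def]
  intro r
  by_cases hr : r.Prime ∧ r ∣ m
  · have key : ∀ n ∈ Set.range (fun g : G => idx g), n.factorization r = m.factorization r →
        m.factorization r ≤ (Nat.card G).factorization r := by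
      rintro _ ⟨g, rfl⟩ hn
      rw [← hn]
      exact (Nat.factorization_le_iff_dvd (idx_ne_zero g) Nat.card_pos.ne').2 (idx_dvd_card g) r
    rcases h.cover r hr.1 hr.2 with hS | hT
    · obtain ⟨n, hn, hf⟩ := h.exS
      exact key n hn (hf r hS)
    · obtain ⟨n, hn, hf⟩ := h.exT
      exact key n hn (hf r hT)
  · have : m.factorization r = 0 := by
      rw [Nat.factorization_eq_zero_iff]
      by_cases h1 : r.Prime
      · right; left
        exact fun h2 => hr ⟨h1, h2⟩
      · left; exact h1
    rw [this]
    exact Nat.zero_le _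

end Cfsg.Agent.Lib.H84CsDvd
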