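import Mathlib
import Cfsg.Agent.Lib.H84CsDefs

set_option autoImplicit false

namespace Cfsg.Agent.Lib.H84CsGrow

open Cfsg.Agent.Lib.H84CsDefs

/-- PIECE Grow.  A non-trivial `p`-subgroup `R` which is not a Sylow subgroup contains `w ≠ 1` centralised by a larger `p`-subgroup. -/
theorem exists_w {G : Type*} [Group G] [Finite G] (p : ℕ) [Fact p.Prime] (R : Subgroup G) (e : ℕ) (he : 1 ≤ e)
    (hR : Nat.card R = p ^ e) (hdvd : p ^ (e + 1) ∣ Nat.card G) :
    ∃ w ∈ R, w ≠ 1 ∧ p ^ (e + 1) ∣ Nat.card (Subgroup.centralizer ({w} : Set G)) := by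
  obtain ⟨K, hK, hRK⟩ := Sylow.exists_subgroup_card_pow_succ hdvd hR
  have hKp : IsPGroup p K := IsPGroup.of_card hK
  have hcR' : Nat.card (R.subgroupOf K) = p ^ e := by
    rw [← hR]
    exact Nat.card_congr (Subgroup.subgroupOfEquivOfLe hRK).toEquiv
  have hidx : (R.subgroupOf K).index = p := by
    have := (R.subgroupOf K).card_mul_index
    rw [hcR', hK, pow_succ] at this
    exact Nat.eq_of_mul_eq_mul_left (pow_pos (Fact.out : p.Prime).pos e) this
  have hn : (R.subgroupOf K).Normal := by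
    apply Subgroup.normal_of_index_eq_minFac_card
    rw [hidx, hK, Nat.Prime.pow_minFac Fact.out (Nat.succ_ne_zero e)]
  let _ : MulAction K (R.subgroupOf K) :=
    MulAction.compHom _ (MulAut.conjNormal : K →* MulAut (R.subgroupOf K))
  have hdvd' : p ∣ Nat.card (R.subgroupOf K) := by
    rw [hcR']
    exact dvd_pow_self p (by omega)
  have h1 : (1 : R.subgroupOf K) ∈ MulAction.fixedPoints K (R.subgroupOf K) := by
    intro k
    show MulAut.conjNormal k 1 = 1
    simp
  obtain ⟨w, hw, hw1⟩ := hKp.exists_fixed_point_of_prime_dvd_card_of_fixed_point _ hdvd' h1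
  refine ⟨((w : K) : G), w.2, ?_, ?_⟩
  · intro h
    apply hw1
    apply Subtype.ext
    apply Subtype.ext
    exact h.symm
  · rw [← hK]
    apply Subgroup.card_dvd_of_le
    intro k hk
    rw [Subgroup.mem_centralizer_singleton_iff]
    have h2 : MulAut.conjNormal (⟨k, hk⟩ : K) w = w := hw ⟨k, hk⟩
    have h3 : (((MulAut.conjNormal (⟨k, hk⟩ : K) w : R.subgroupOf K) : K) : G) = ((w : K) : G) := by
      rw [h2]
    rw [MulAut.conjNormal_apply] at h3
    simp only [Subgroup.coe_mul, Subgroup.coe_inv] at h3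
    exact mul_inv_eq_iff_eq_mul.mp h3
end Cfsg.Agent.Lib.H84CsGrow
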