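import Mathlib
import Cfsg.Agent.Lib.H84CsDefs

set_option autoImplicit false

namespace Cfsg.Agent.Lib.H84CsFull

open Cfsg.Agent.Lib.H84CsDefs

/-- PIECE Full (20m, PURE MATHLIB), part 1.  `card_cent_mul_idx y : |C| * idx y = |M|`; `Nat.factorization_mul` (both factors `≠ 0`: `Nat.card_pos.ne'`, `idx_ne_zero`),
`Finsupp.add_apply`, `Nat.factorization_eq_zero_of_not_dvd (h b hb)`. -/
theorem full_of_coprime {M : Type*} [Group M] [Finite M] (y : M) (T : Set ℕ)
    (h : ∀ b ∈ T, ¬ b ∣ Nat.card (Subgroup.centralizer ({y} : Set M))) : Full (Nat.card M) T (idx y) := by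
  intro b hb
  have h1 := card_cent_mul_idx y
  have h2 : (Nat.card (Subgroup.centralizer ({y} : Set M)) * idx y).factorization b
      = (Nat.card M).factorization b := by rw [h1]
  rw [Nat.factorization_mul Nat.card_pos.ne' (idx_ne_zero y), Finsupp.add_apply,
    Nat.factorization_eq_zero_of_not_dvd (h b hb), zero_add] at h2
  exact h2

/-- part 2.  `Nat.eq_of_factorization_eq` (`n ≠ 0` since `n ∣ m ≠ 0`): for `r` prime dividing `m` use `cover`, `h1`, `h2`; for `r` not prime both sides are `0`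
(`Nat.factorization_eq_zero_of_non_prime`); for `r ∤ m` also `r ∤ n` (`Nat.factorization_eq_zero_of_not_dvd`). -/
theorem eq_of_full {m n : ℕ} (S T : Set ℕ) (hm : m ≠ 0) (hn : n ∣ m) (cover : ∀ r, r.Prime → r ∣ m → r ∈ S ∨ r ∈ T)
    (h1 : Full m S n) (h2 : Full m T n) : n = m := by
  have hn0 : n ≠ 0 := by
    rintro rfl
    exact hm (Nat.eq_zero_of_zero_dvd hn)
  refine Nat.eq_of_factorization_eq hn0 hm (fun r => ?_)
  by_cases hr : r.Prime
  · by_cases hrm : r ∣ m
    · rcases cover r hr hrm with h | h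
      · exact h1 r h
      · exact h2 r h
    · rw [Nat.factorization_eq_zero_of_not_dvd hrm,
        Nat.factorization_eq_zero_of_not_dvd (fun h => hrm (h.trans hn))]
  · rw [Nat.factorization_eq_zero_of_not_prime _ hr, Nat.factorization_eq_zero_of_not_prime _ hr]

/-- part 3.  If `idx y = |M|` then `|C| = 1` (`card_cent_mul_idx`, cancel), so `y = 1` (`y ∈ C`: `Subgroup.mem_centralizer_singleton_iff`; `Subgroup.card_eq_one`/`Subgroup.eq_bot_of_card_eq`),
so `C = ⊤` and `|M| = 1`. -/
theorem idx_ne_card {M : Type*} [Group M] [Finite M] (hM : Nat.card M ≠ 1) (y : M) : idx y ≠ Nat.card M := by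
  intro h
  have h1 := card_cent_mul_idx y
  rw [h] at h1
  have h2 : Nat.card (Subgroup.centralizer ({y} : Set M)) = 1 := by
    have : Nat.card (Subgroup.centralizer ({y} : Set M)) * Nat.card M = 1 * Nat.card M := by
      rw [h1, one_mul]
    exact Nat.eq_of_mul_eq_mul_right Nat.card_pos this
  have h3 : Subgroup.centralizer ({y} : Set M) = ⊥ := Subgroup.eq_bot_of_card_eq _ h2
  have hy : y ∈ Subgroup.centralizer ({y} : Set M) := by
    rw [Subgroup.mem_centralizer_singleton_iff]
  rw [h3, Subgroup.mem_bot] at hy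
  subst hy
  have h4 : Subgroup.centralizer ({1} : Set M) = ⊤ := by
    rw [eq_top_iff]
    intro g _
    rw [Subgroup.mem_centralizer_singleton_iff]
    simp
  rw [h4] at h3
  apply hM
  rw [← Subgroup.card_top, h3, Subgroup.card_bot]

/-- part 4 (monotonicity).  `n ∣ n' ∣ m`, `Full m S n` ⇒ `Full m S n'`: `(Nat.factorization_le_iff_dvd _ _).2` twice and `le_antisymm`. -/
theorem full_mono {m n n' : ℕ} (S : Set ℕ) (hm : m ≠ 0) (h1 : n ∣ n') (h2 : n' ∣ m) (h : Full m S n) : Full m S n' := by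
  have hn'0 : n' ≠ 0 := by
    rintro rfl
    exact hm (Nat.eq_zero_of_zero_dvd h2)
  have hn0 : n ≠ 0 := by
    rintro rfl
    exact hn'0 (Nat.eq_zero_of_zero_dvd h1)
  intro a ha
  refine le_antisymm ((Nat.factorization_le_iff_dvd hn'0 hm).2 h2 a) ?_
  rw [← h a ha]
  exact (Nat.factorization_le_iff_dvd hn0 hn'0).2 h1 a

end Cfsg.Agent.Lib.H84CsFull
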