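import Mathlib
import Cfsg.Agent.Lib.H84CsDefs

set_option autoImplicit false

namespace Cfsg.Agent.Lib.H84CsProd

open Cfsg.Agent.Lib.H84CsDefs

/-- PIECE Prod (35m, PURE MATHLIB).  Commuting elements of coprime orders: `C(w z) ≤ C(w) ∩ C(z)`.
If `g` commutes with `w * z` it commutes with `(w * z) ^ orderOf z = w ^ orderOf z` (`Commute.mul_pow`, `pow_orderOf_eq_one`) and `w = (w ^ orderOf z) ^ k` for some `k`
(`exists_pow_eq_self_of_coprime`), so `g` commutes with `w`; symmetric for `z`.  Then `Subgroup.index_dvd_of_le`.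
`w * z = 1` ⇒ `w = z⁻¹`, `orderOf w = orderOf z` (`orderOf_inv`), coprime to itself ⇒ `orderOf w = 1` (`Nat.coprime_self`) ⇒ `w = 1`. -/
theorem idx_dvd {G : Type*} [Group G] [Finite G] (w z : G) (hc : Commute w z) (hco : (orderOf w).Coprime (orderOf z)) :
    idx w ∣ idx (w * z) ∧ idx z ∣ idx (w * z) ∧ (w ≠ 1 → w * z ≠ 1) := by
  have key : ∀ (a b : G), Commute a b → (orderOf a).Coprime (orderOf b) →
      Subgroup.centralizer ({a * b} : Set G) ≤ Subgroup.centralizer ({a} : Set G) := by
    intro a b hab hcop g hg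
    rw [Subgroup.mem_centralizer_singleton_iff] at hg ⊢
    have hg' : Commute g (a * b) := hg
    have h1 : Commute g ((a * b) ^ orderOf b) := hg'.pow_right _
    rw [hab.mul_pow, pow_orderOf_eq_one, mul_one] at h1
    obtain ⟨k, hk⟩ := exists_pow_eq_self_of_coprime hcop.symm
    have h2 : Commute g ((a ^ orderOf b) ^ k) := h1.pow_right _
    rw [hk] at h2
    exact h2
  refine ⟨Subgroup.index_dvd_of_le (key w z hc hco), ?_, ?_⟩
  · have := key z w hc.symm hco.symm
    rw [hc.symm.eq] at this
    exact Subgroup.index_dvd_of_le this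
  · intro hw hwz
    have h1 : w = z⁻¹ := eq_inv_of_mul_eq_one_left hwz
    have h2 : orderOf w = orderOf z := by rw [h1, orderOf_inv]
    rw [← h2, Nat.coprime_self] at hco
    exact hw (orderOf_eq_one_iff.mp hco)

end Cfsg.Agent.Lib.H84CsProd
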