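import Mathlib
import Cfsg.Agent.Lib.H84CsDefs
import Cfsg.Agent.Lib.H84CsProd
import Cfsg.Agent.Lib.H84CsFull

set_option autoImplicit false

namespace Cfsg.Agent.Lib.H84CsType

open Cfsg.Agent.Lib.H84CsDefs

/-- PIECE Type (25m, glue).  `n := idx (w * z) ∈ N`, `n ∣ m` (`h.dvd`).  `Full m S n` by `H84CsFull.full_mono` from `idx z ∣ n` (`H84CsProd.idx_dvd`).  So `¬ Full m T n` (`h.excl`).
If `Full m T (idx w)` then `Full m T n` (`full_mono`, `idx w ∣ n`): contradiction.  `idx w ≠ 1` because `w ∉ center G = ⊥`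
(`idx w = 1` ⇒ `centralizer {w} = ⊤` (`Subgroup.index_eq_one`) ⇒ `w ∈ center G` (`Subgroup.centralizer_eq_top_iff_subset`, `Set.singleton_subset_iff`)).  Conclude by `h.alt`. -/
theorem full_of_commute {G : Type*} [Group G] [Finite G] (hZ : Subgroup.center G = ⊥) {m : ℕ} {S T : Set ℕ}
    (h : Dat (Set.range (fun g : G => idx g)) m S T) (w z : G) (hc : Commute w z)
    (hco : (orderOf w).Coprime (orderOf z)) (hw : w ≠ 1) (hz : Full m S (idx z)) : Full m S (idx w) := by
  obtain ⟨h1, h2, _⟩ := H84CsProd.idx_dvd w z hc hco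
  have hn : idx (w * z) ∈ Set.range (fun g : G => idx g) := ⟨w * z, rfl⟩
  have hnm := h.dvd _ hn
  have hS : Full m S (idx (w * z)) := H84CsFull.full_mono S h.m_pos h2 hnm hz
  have hT : ¬ Full m T (idx (w * z)) := fun hT => h.excl _ hn ⟨hS, hT⟩
  have hw1 : idx w ≠ 1 := by
    intro h1'
    apply hw
    have h3 : Subgroup.centralizer ({w} : Set G) = ⊤ := Subgroup.index_eq_one.1 h1'
    have h4 : w ∈ Subgroup.center G := by
      rw [Subgroup.centralizer_eq_top_iff_subset, Set.singleton_subset_iff] at h3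
      exact h3
    rw [hZ] at h4
    exact Subgroup.mem_bot.1 h4
  rcases h.alt _ ⟨w, rfl⟩ hw1 with h5 | h5
  · exact h5
  · exact absurd (H84CsFull.full_mono T h.m_pos h1 hnm h5) hT

end Cfsg.Agent.Lib.H84CsType
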