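import Mathlib
import Cfsg.Agent.Lib.H84CsDefs

set_option autoImplicit false

namespace Cfsg.Agent.Lib.H84CsZElt

open Cfsg.Agent.Lib.H84CsDefs

/-- PIECE ZElt (30m, PURE MATHLIB).  A non-identity element of the centre of a Sylow `q`-subgroup.
`Q : Sylow q G`, nontrivial (`Sylow.ne_bot_of_dvd_card` / card); `IsPGroup.center_nontrivial Q.2` gives `z₀ ≠ 1` in `center Q`; `z := (z₀ : G)`.
`orderOf z = q ^ j`: `(Q.2 _)`/`IsPGroup.iff_orderOf`, `Subgroup.orderOf_coe`.  `Q ≤ centralizer {z}` so `idx z ∣ Q.index` (`Subgroup.index_dvd_of_le`) and `¬ q ∣ Q.index` (`Sylow.not_dvd_index` / `Q.not_dvd_index'`). -/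
theorem exists_z {G : Type*} [Group G] [Finite G] (q : ℕ) (hq : q.Prime) (h : q ∣ Nat.card G) :
    ∃ z : G, z ≠ 1 ∧ (∃ j, orderOf z = q ^ j) ∧ ¬ q ∣ idx z := by
  haveI : Fact q.Prime := ⟨hq⟩
  obtain ⟨Q⟩ : Nonempty (Sylow q G) := inferInstance
  have hQne : (Q : Subgroup G) ≠ ⊥ := Sylow.ne_bot_of_dvd_card Q h
  haveI : Nontrivial (Q : Subgroup G) := (Subgroup.nontrivial_iff_ne_bot _).2 hQne
  haveI := IsPGroup.center_nontrivial Q.2
  obtain ⟨z₀, hz₀⟩ := exists_ne (1 : Subgroup.center (Q : Subgroup G))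
  refine ⟨((z₀ : (Q : Subgroup G)) : G), ?_, ?_, ?_⟩
  · intro h1
    apply hz₀
    apply Subtype.ext
    apply Subtype.ext
    exact h1
  · obtain ⟨j, hj⟩ := (IsPGroup.iff_orderOf.1 Q.2) (z₀ : (Q : Subgroup G))
    exact ⟨j, by rw [Subgroup.orderOf_coe]; exact hj⟩
  · have hle : (Q : Subgroup G) ≤ Subgroup.centralizer ({((z₀ : (Q : Subgroup G)) : G)} : Set G) := by
      intro g hg
      rw [Subgroup.mem_centralizer_singleton_iff]
      have := Subgroup.mem_center_iff.1 z₀.2 ⟨g, hg⟩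
      exact congrArg Subtype.val this
    intro hd
    exact Q.not_dvd_index (hd.trans (Subgroup.index_dvd_of_le hle))

end Cfsg.Agent.Lib.H84CsZElt
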