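import Mathlib
import Cfsg.Agent.Lib.H84CsDefs
import Cfsg.Agent.Lib.H84CsDvd
import Cfsg.Agent.Lib.H84CsZElt
import Cfsg.Agent.Lib.H84CsType
import Cfsg.Agent.Lib.H84CsGrow

set_option autoImplicit false

namespace Cfsg.Agent.Lib.H84CsMain

open Cfsg.Agent.Lib.H84CsDefs

/-- PIECE Main (60m, START FIRST).  The `p`-part of `|G|` is not bigger than that of `m` (`p ∈ S`).
Proof.  By contradiction: `v_p |G| > v_p m =: f ≥ 1` (`f ≥ 1`: `h.prime_S`, `Nat.Prime.factorization_pos_of_dvd`).  Pick `q ∈ T` (`h.neT`), `q ∣ m ∣ |G|` (`H84CsDvd.dvd_card`), `q ≠ p` (`h.disj`).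
`z` from `H84CsZElt.exists_z q`.  `idx z ≠ 1` (as in piece Type: `z ∉ center G`); `¬ Full m T (idx z)` because `(idx z).factorization q = 0 ≠ m.factorization q`; so `Full m S (idx z)` (`h.alt`).
`C := centralizer {z}`: `|C| * idx z = |G|` gives `v_p |C| = v_p |G| - f =: e ≥ 1` (`Nat.factorization_mul`).  `R₀ : Sylow p C`, `|R₀| = p ^ e` (`Sylow.card_eq_multiplicity`), `R := R₀.map C.subtype`, `|R| = p ^ e` (`Subgroup.card_map_of_injective`/`Subgroup.card_subtype`).
`p ^ (e+1) ∣ |G|` as `e + 1 ≤ v_p |G|` (`Nat.ordProj_dvd`, `pow_dvd_pow`).  `H84CsGrow.exists_w` gives `w ∈ R`, `w ≠ 1`, `p^(e+1) ∣ |C(w)|`.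
`w ∈ C` commutes with `z`; `orderOf w` is a power of `p` (`orderOf_dvd_natCard` in `R`, `(Nat.dvd_prime_pow hp).1`), `orderOf z = q ^ j`: coprime (`Nat.Coprime.pow`, `Nat.coprime_primes`).
`H84CsType.full_of_commute` ⇒ `(idx w).factorization p = f`, so `v_p |C(w)| = v_p |G| - f = e`, contradicting `p^(e+1) ∣ |C(w)|` (`(Nat.Prime.pow_dvd_iff_le_factorization hp _).1`). -/
theorem le_factorization {G : Type*} [Group G] [Finite G] (hZ : Subgroup.center G = ⊥) {m : ℕ} {S T : Set ℕ}
    (h : Dat (Set.range (fun g : G => idx g)) m S T) (p : ℕ) (hp : p ∈ S) :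
    (Nat.card G).factorization p ≤ m.factorization p := by
  by_contra hcon
  rw [not_le] at hcon
  obtain ⟨hpp, hpm⟩ := h.prime_S p hp
  haveI : Fact p.Prime := ⟨hpp⟩
  have hf1 : 0 < m.factorization p := hpp.factorization_pos_of_dvd h.m_pos hpm
  obtain ⟨q, hq⟩ := h.neT
  obtain ⟨hqp, hqm⟩ := h.prime_T q hq
  have hmG : m ∣ Nat.card G := H84CsDvd.dvd_card h
  have hqG : q ∣ Nat.card G := hqm.trans hmG
  have hqp_ne : q ≠ p := fun e => h.disj p hp (e ▸ hq)
  obtain ⟨z, hz1, ⟨j, hzj⟩, hqz⟩ := H84CsZElt.exists_z q hqp hqG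
  have hidx1 : ∀ w : G, w ≠ 1 → idx w ≠ 1 := by
    intro w hw h1
    have h2 : Subgroup.centralizer ({w} : Set G) = ⊤ := Subgroup.index_eq_one.1 h1
    rw [Subgroup.centralizer_eq_top_iff_subset, Set.singleton_subset_iff] at h2
    have h3 : w ∈ Subgroup.center G := h2
    rw [hZ] at h3
    exact hw (Subgroup.mem_bot.1 h3)
  have hnT : ¬ Full m T (idx z) := by
    intro hT
    have h2 := hT q hq
    rw [Nat.factorization_eq_zero_of_not_dvd hqz] at h2
    have h3 : 0 < m.factorization q := hqp.factorization_pos_of_dvd h.m_pos hqm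
    omega
  have hS : Full m S (idx z) := (h.alt (idx z) ⟨z, rfl⟩ (hidx1 z hz1)).resolve_right hnT
  have hv : ∀ w : G, Full m S (idx w) →
      (Nat.card (Subgroup.centralizer ({w} : Set G))).factorization p + m.factorization p
        = (Nat.card G).factorization p := by
    intro w hw
    have h1 := card_cent_mul_idx w
    have h2 : (Nat.card (Subgroup.centralizer ({w} : Set G)) * idx w).factorization p
        = (Nat.card G).factorization p := by rw [h1]
    rw [Nat.factorization_mul Nat.card_pos.ne' (idx_ne_zero w), Finsupp.add_apply, hw p hp] at h2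
    exact h2
  set C := Subgroup.centralizer ({z} : Set G) with hC
  set e := (Nat.card C).factorization p with he
  have hve : e + m.factorization p = (Nat.card G).factorization p := hv z hS
  have he1 : 1 ≤ e := by omega
  obtain ⟨R₀⟩ : Nonempty (Sylow p C) := inferInstance
  have hR0 : Nat.card R₀ = p ^ e := R₀.card_eq_multiplicity
  set R : Subgroup G := (R₀ : Subgroup C).map C.subtype with hR
  have hRcard : Nat.card R = p ^ e := by
    rw [hR, Subgroup.card_map_of_injective C.subtype_injective]; exact hR0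
  have hdvd : p ^ (e + 1) ∣ Nat.card G :=
    (pow_dvd_pow p (by omega)).trans (Nat.ordProj_dvd (Nat.card G) p)
  obtain ⟨w, hwR, hw1, hwd⟩ := H84CsGrow.exists_w p R e he1 hRcard hdvd
  have hwC : w ∈ C := by
    obtain ⟨x, _, rfl⟩ := hwR
    exact x.2
  have hcomm : Commute w z := by
    have h2 := Subgroup.mem_centralizer_singleton_iff.1 hwC
    exact h2
  obtain ⟨k, hk⟩ : ∃ k, orderOf w = p ^ k := by
    have h1 : orderOf (⟨w, hwR⟩ : R) ∣ Nat.card R := orderOf_dvd_natCard _
    rw [hRcard, Subgroup.orderOf_mk] at h1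
    obtain ⟨k, _, hk⟩ := (Nat.dvd_prime_pow hpp).1 h1
    exact ⟨k, hk⟩
  have hco : (orderOf w).Coprime (orderOf z) := by
    rw [hk, hzj]
    exact Nat.Coprime.pow _ _ ((Nat.coprime_primes hpp hqp).2 hqp_ne.symm)
  have hSw := H84CsType.full_of_commute hZ h w z hcomm hco hw1 hS
  have hvw := hv w hSw
  have h9 := (hpp.pow_dvd_iff_le_factorization Nat.card_pos.ne').1 hwd
  omega

end Cfsg.Agent.Lib.H84CsMain
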