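import Mathlib
import Cfsg.Agent.Lib.H84CsDefs
import Cfsg.Agent.Lib.Helper72Class

set_option autoImplicit false

namespace Cfsg.Agent.Lib.H84CsNoDiv

open Cfsg.Agent.Lib.H84CsDefs

/-- PIECE NoDiv (45m).  If `p` divides no class size then the Sylow `p`-subgroups are central.
Proof.  `P : Sylow p G` (`Fact p.Prime`).  Claim: `centralizer (P : Set G) = ⊤`, by `Helper72Class.eq_top_of_conj_cover`: for `g : G` we need `c` with `c * g * c⁻¹` centralising `P`.
`P` acts on `G ⧸ centralizer {g}` (left multiplication, `MulAction` of the subgroup `P`), whose cardinality `idx g` is prime to `p`, so there is a fixed point `x C`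
(`IsPGroup.exists_fixed_point_of_prime_not_dvd_card P.2` / `P.isPGroup'`): `u * x ∈ x C` i.e. `x⁻¹ * u * x ∈ centralizer {g}` for all `u ∈ P` (`QuotientGroup.eq`), i.e. `u` commutes with `x * g * x⁻¹`; take `c = x`.
Then `P ≤ center G = ⊥` (`Subgroup.centralizer_eq_top_iff_subset`), so `|P| = 1`, and `p ∣ |G|` would give `p ∣ |P|` (`Sylow.card_eq_multiplicity`/`P.card_eq_multiplicity`, or `Sylow.ne_bot_of_dvd_card`). -/
theorem not_dvd_card {G : Type*} [Group G] [Finite G] (hZ : Subgroup.center G = ⊥) (p : ℕ) (hp : p.Prime)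
    (h : ∀ g : G, ¬ p ∣ idx g) : ¬ p ∣ Nat.card G := by
  intro hdvd
  haveI : Fact p.Prime := ⟨hp⟩
  obtain ⟨P⟩ : Nonempty (Sylow p G) := inferInstance
  have htop : Subgroup.centralizer (P : Set G) = ⊤ := by
    apply Helper72Class.eq_top_of_conj_cover
    intro g
    have hnd : ¬ p ∣ Nat.card (G ⧸ Subgroup.centralizer ({g} : Set G)) := h g
    obtain ⟨x, hx⟩ := IsPGroup.nonempty_fixed_point_of_prime_not_dvd_card
      P.2 (G ⧸ Subgroup.centralizer ({g} : Set G)) hnd
    induction x using QuotientGroup.induction_on with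
    | H x =>
      refine ⟨x, ?_⟩
      rw [Subgroup.mem_centralizer_iff]
      intro u hu
      have h1 := hx ⟨u, hu⟩
      have h2 : ((u * x : G) : G ⧸ Subgroup.centralizer ({g} : Set G)) = (x : G ⧸ _) := h1
      rw [QuotientGroup.eq, Subgroup.mem_centralizer_singleton_iff] at h2
      have h3 : x⁻¹ * u⁻¹ * x * g = g * (x⁻¹ * u⁻¹ * x) := by simpa [mul_assoc] using h2
      have h4 : u * (x * g * x⁻¹) = u * x * (g * (x⁻¹ * u⁻¹ * x)) * x⁻¹ * u := by group
      rw [h4, ← h3]; group
  rw [Subgroup.centralizer_eq_top_iff_subset] at htop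
  have hPbot : (P : Subgroup G) = ⊥ := by
    rw [eq_bot_iff, ← hZ]; exact htop
  exact Sylow.ne_bot_of_dvd_card P hdvd hPbot

end Cfsg.Agent.Lib.H84CsNoDiv
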