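import Mathlib
import Cfsg.Agent.Lib.H84CsDefs
import Cfsg.Agent.Lib.H84CsDvd
import Cfsg.Agent.Lib.H84CsNoDiv
import Cfsg.Agent.Lib.H84CsMain

set_option autoImplicit false

namespace Cfsg.Agent.Lib.H84CsFin

open Cfsg.Agent.Lib.H84CsDefs

/-- Assembly (helper84). -/
theorem card_eq {G : Type*} [Group G] [Finite G] (hZ : Subgroup.center G = ⊥) {m : ℕ} {S T : Set ℕ}
    (h : Dat (Set.range (fun g : G => idx g)) m S T) : Nat.card G = m := by
  apply Nat.dvd_antisymm _ (H84CsDvd.dvd_card h)
  rw [← Nat.factorization_le_iff_dvd Nat.card_pos.ne' h.m_pos, Finsupp.le_def]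
  intro r
  by_cases hr : r.Prime
  · by_cases hrm : r ∣ m
    · rcases h.cover r hr hrm with h1 | h1
      · exact H84CsMain.le_factorization hZ h r h1
      · exact H84CsMain.le_factorization hZ h.symm r h1
    · have : ¬ r ∣ Nat.card G := by
        apply H84CsNoDiv.not_dvd_card hZ r hr
        intro g hg
        exact hrm (hg.trans (h.dvd _ ⟨g, rfl⟩))
      rw [Nat.factorization_eq_zero_of_not_dvd this]
      exact Nat.zero_le _
  · rw [Nat.factorization_eq_zero_of_not_prime _ hr]
    exact Nat.zero_le _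

end Cfsg.Agent.Lib.H84CsFin
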