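import Mathlib
import Cfsg.Agent.Lib.H84CsDefs
import Cfsg.Agent.Lib.H84CsCop
import Cfsg.Agent.Lib.H84CsFull

set_option autoImplicit false

namespace Cfsg.Agent.Lib.H84CsMDat

open Cfsg.Agent.Lib.H84CsDefs

/-- PIECE MDat (45m, glue of Cop + Full).  The class sizes of a group with disconnected prime graph.
`m_pos`: `Nat.card_pos.ne'`.  `dvd`: `idx_dvd_card`.  `prime_S, prime_T, cover (by_cases r ∈ A), disj, neS, neT`: trivial.
KEY: for `y ≠ 1` pick a prime `r ∣ orderOf y` (`Nat.exists_prime_and_dvd`, `orderOf_eq_one_iff`); `r ∣ |M|` (`orderOf_dvd_natCard`).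
If `r ∈ A`: for all `b ∈ T`, `b ∤ |C(y)|` (`H84CsCop.cent_coprime y r b` with `hdisc r _ b _`), so `Full m T (idx y)` (`H84CsFull.full_of_coprime`).
If `r ∉ A`: for `a ∈ S`, `cent_coprime y r a` (no element of order `r * a = a * r`: `mul_comm`), so `Full m S (idx y)`.
`alt`: `n = idx y ≠ 1` forces `y ≠ 1` (`idx 1 = 1`: `Subgroup.centralizer` of `{1}` is `⊤`, `Subgroup.index_top`; e.g. `by simp [idx]` after `Subgroup.centralizer_eq_top_iff_subset`).
`excl`: `H84CsFull.eq_of_full` gives `idx y = |M|`, contradiction with `H84CsFull.idx_ne_card` (`|M| ≠ 1` as a prime divides it).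
`exS`: an element `y` of prime order `b ∉ A` (Cauchy: `exists_prime_orderOf_dvd_card'`) has `Full m S (idx y)` by KEY; `exT` likewise. -/
theorem mdat {M : Type*} [Group M] [Finite M] (A : Set ℕ) (hA : ∃ a ∈ A, a.Prime ∧ a ∣ Nat.card M)
    (hB : ∃ b ∉ A, b.Prime ∧ b ∣ Nat.card M)
    (hdisc : ∀ a ∈ A, ∀ b ∉ A, a.Prime → b.Prime → a ∣ Nat.card M → b ∣ Nat.card M → ¬ ∃ x : M, orderOf x = a * b) :
    Dat (Set.range (fun g : M => idx g)) (Nat.card M) {a | a ∈ A ∧ a.Prime ∧ a ∣ Nat.card M}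
      {b | b ∉ A ∧ b.Prime ∧ b ∣ Nat.card M} := by
  have hidx_one : idx (1 : M) = 1 := by
    unfold idx
    rw [Subgroup.index_eq_one, Subgroup.centralizer_eq_top_iff_subset, Set.singleton_subset_iff]
    exact Subgroup.one_mem _
  have keyA : ∀ (y : M) (r : ℕ), r.Prime → r ∣ orderOf y → r ∈ A →
      Full (Nat.card M) {b | b ∉ A ∧ b.Prime ∧ b ∣ Nat.card M} (idx y) := by
    intro y r hr hry hrA
    apply H84CsFull.full_of_coprime
    rintro b ⟨hbA, hbp, hbM⟩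
    exact H84CsCop.cent_coprime y r b hr hbp (fun e => hbA (e ▸ hrA)) hry
      (hdisc r hrA b hbA hr hbp (hry.trans (orderOf_dvd_natCard y)) hbM)
  have keyB : ∀ (y : M) (r : ℕ), r.Prime → r ∣ orderOf y → r ∉ A →
      Full (Nat.card M) {a | a ∈ A ∧ a.Prime ∧ a ∣ Nat.card M} (idx y) := by
    intro y r hr hry hrA
    apply H84CsFull.full_of_coprime
    rintro a ⟨haA, hap, haM⟩
    refine H84CsCop.cent_coprime y r a hr hap (fun e => hrA (e ▸ haA)) hry ?_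
    rw [mul_comm]
    exact hdisc a haA r hrA hap hr haM (hry.trans (orderOf_dvd_natCard y))
  have hcover : ∀ r, r.Prime → r ∣ Nat.card M → r ∈ {a | a ∈ A ∧ a.Prime ∧ a ∣ Nat.card M} ∨
      r ∈ {b | b ∉ A ∧ b.Prime ∧ b ∣ Nat.card M} := by
    intro r hr hrm
    by_cases hrA : r ∈ A
    · exact Or.inl ⟨hrA, hr, hrm⟩
    · exact Or.inr ⟨hrA, hr, hrm⟩
  refine { m_pos := Nat.card_pos.ne', dvd := ?_, prime_S := fun a ha => ha.2,
           prime_T := fun b hb => hb.2, cover := hcover, disj := fun a ha hb => hb.1 ha.1,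
           neS := ?_, neT := ?_, alt := ?_, excl := ?_, exS := ?_, exT := ?_ }
  · rintro n ⟨g, rfl⟩; exact idx_dvd_card g
  · obtain ⟨a, ha, h1⟩ := hA; exact ⟨a, ha, h1⟩
  · obtain ⟨b, hb, h1⟩ := hB; exact ⟨b, hb, h1⟩
  · rintro n ⟨y, rfl⟩ hn
    have hy : y ≠ 1 := by rintro rfl; exact hn hidx_one
    obtain ⟨r, hr, hry⟩ := Nat.exists_prime_and_dvd (fun e => hy (orderOf_eq_one_iff.1 e))
    by_cases hrA : r ∈ A
    · exact Or.inr (keyA y r hr hry hrA)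
    · exact Or.inl (keyB y r hr hry hrA)
  · rintro n ⟨y, rfl⟩ ⟨h1, h2⟩
    have hM1 : Nat.card M ≠ 1 := by
      obtain ⟨a, _, hap, haM⟩ := hA
      intro e; rw [e] at haM; exact hap.one_lt.ne' (Nat.dvd_one.1 haM)
    exact H84CsFull.idx_ne_card hM1 y
      (H84CsFull.eq_of_full _ _ Nat.card_pos.ne' (idx_dvd_card y) hcover h1 h2)
  · obtain ⟨b, hbA, hbp, hbM⟩ := hB
    haveI : Fact b.Prime := ⟨hbp⟩
    obtain ⟨y, hy⟩ := exists_prime_orderOf_dvd_card' b hbM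
    exact ⟨idx y, ⟨y, rfl⟩, keyB y b hbp (hy ▸ dvd_rfl) hbA⟩
  · obtain ⟨a, haA, hap, haM⟩ := hA
    haveI : Fact a.Prime := ⟨hap⟩
    obtain ⟨y, hy⟩ := exists_prime_orderOf_dvd_card' a haM
    exact ⟨idx y, ⟨y, rfl⟩, keyA y a hap (hy ▸ dvd_rfl) haA⟩

end Cfsg.Agent.Lib.H84CsMDat
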