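import Cfsg.Agent.Lib.H88McDefs

set_option autoImplicit false

namespace Cfsg.Agent.Lib.H88McNT

open Cfsg Cfsg.Agent.Lib.H88McDefs

/-- Dirichlet (`Nat.forall_exists_prime_gt_and_eq_mod`, modulus `2^(k+2)`, residue `2^(k+1)+1`, a unit of `ZMod (2^(k+2))` because odd:
`ZMod.isUnit_iff_coprime` / `(ZMod.unitOfCoprime ..)`): a prime `q ≡ 2^(k+1)+1 mod 2^(k+2)`.
Then `q - 1 = 2^(k+1) * odd`, `q + 1 = 2 * odd`, so `q * (q^2 - 1) = 2^(k+2) * odd`. -/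
theorem exists_prime_sl (k : ℕ) (hk : 1 ≤ k) :
    ∃ q : ℕ, q.Prime ∧ Odd q ∧ ∃ r : ℕ, Odd r ∧ q * (q ^ 2 - 1) = 2 ^ (k + 2) * r := by
  obtain ⟨k', rfl⟩ : ∃ k', k = k' + 1 := ⟨k - 1, by omega⟩
  set B := 2 ^ k' with hB
  have e1 : 2 ^ (k' + 1 + 1) = 4 * B := by rw [hB]; ring
  have e2 : 2 ^ (k' + 1 + 2) = 8 * B := by rw [hB]; ring
  have hcop : (4 * B + 1).Coprime (8 * B) := by
    rw [← e2]
    apply Nat.Coprime.pow_right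
    rw [Nat.coprime_two_right]
    exact ⟨2 * B, by ring⟩
  have hB0 : 0 < B := by rw [hB]; positivity
  obtain ⟨q, hq1, hqp, hq2⟩ := Nat.forall_exists_prime_gt_and_modEq (4 * B + 1) (q := 8 * B)
    (a := 4 * B + 1) (by omega) hcop
  have h3 := (Nat.modEq_iff_dvd' hq1.le).mp hq2.symm
  obtain ⟨j, hj⟩ := h3
  have hq : q = 4 * B + 1 + 8 * B * j := by omega
  refine ⟨q, hqp, ⟨2 * B + 4 * B * j, by rw [hq]; ring⟩,
    q * ((1 + 2 * j) * (2 * B + 1 + 4 * B * j)), ?_, ?_⟩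
  · apply Odd.mul ⟨2 * B + 4 * B * j, by rw [hq]; ring⟩
    exact Odd.mul ⟨j, by ring⟩ ⟨B + 2 * B * j, by ring⟩
  · rw [e2]
    have h4 : q ^ 2 = 8 * B * ((1 + 2 * j) * (2 * B + 1 + 4 * B * j)) + 1 := by rw [hq]; ring
    rw [h4, Nat.add_sub_cancel]
    ring

end Cfsg.Agent.Lib.H88McNT
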