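import Cfsg.Agent.Lib.H88McDefs
import Cfsg.Agent.Lib.H88McNT
import Cfsg.Agent.Lib.Helper7SL

set_option autoImplicit false

namespace Cfsg.Agent.Lib.H88McCard

open Cfsg Cfsg.Agent.Lib.H88McDefs Matrix

theorem fact_two_pow_mul (a r : ℕ) (hr : Odd r) : (2 ^ a * r).factorization 2 = a := by
  have h2 : ¬ 2 ∣ r := by
    intro h
    exact (Nat.not_even_iff_odd.mpr hr) (even_iff_two_dvd.mpr h)
  rw [Nat.factorization_mul (by positivity) hr.pos.ne', Nat.factorization_pow]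
  simp [Nat.factorization_eq_zero_of_not_dvd h2, Nat.prime_two.factorization_self]

/-- `H88McNT.exists_prime_sl k hk` gives `q`; `F = ZMod q`. -/
theorem exists_field_sl (k : ℕ) (hk : 1 ≤ k) :
    ∃ (q : ℕ) (_ : Fact q.Prime), Odd (Fintype.card (ZMod q)) ∧
      ∀ P : Sylow 2 (Matrix.SpecialLinearGroup (Fin 2) (ZMod q)), Nat.card P = 2 ^ (k + 2) := by
  obtain ⟨q, hq, hodd, r, hr, he⟩ := H88McNT.exists_prime_sl k hk
  haveI : Fact q.Prime := ⟨hq⟩
  refine ⟨q, ⟨hq⟩, by rw [ZMod.card]; exact hodd, fun P => ?_⟩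
  rw [Sylow.card_eq_multiplicity, Helper7SL.card_SL_two, ZMod.card, he, fact_two_pow_mul _ _ hr]

end Cfsg.Agent.Lib.H88McCard
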