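import Cfsg.Agent.Lib.H88McDefs

set_option autoImplicit false

namespace Cfsg.Agent.Lib.H88McNT2

open Cfsg Cfsg.Agent.Lib.H88McDefs

/-- Dirichlet: a prime `q ≡ 2^(n-1) - 1 mod 2^n` (`n ≥ 3`).  Then `q % 4 = 3`, `q + 1 = 2^(n-1) * odd`, `q - 1 = 2 * odd`,
`(q^2-1) * (q^2-q) = q (q-1)^2 (q+1) = 2^(n+1) * odd`. -/
theorem exists_prime_gl (n : ℕ) (hn : 3 ≤ n) :
    ∃ q : ℕ, q.Prime ∧ q % 4 = 3 ∧ ∃ r : ℕ, Odd r ∧ (q ^ 2 - 1) * (q ^ 2 - q) = 2 ^ (n + 1) * r := by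
  obtain ⟨k, rfl⟩ : ∃ k, n = k + 3 := ⟨n - 3, by omega⟩
  set B := 2 ^ k with hB
  have e2 : 2 ^ (k + 3) = 8 * B := by rw [hB]; ring
  have e3 : 2 ^ (k + 3 + 1) = 16 * B := by rw [hB]; ring
  have hB0 : 0 < B := by rw [hB]; positivity
  obtain ⟨B', hB'⟩ : ∃ B', B = B' + 1 := ⟨B - 1, by omega⟩
  have hcop : (4 * B' + 3).Coprime (8 * B) := by
    rw [← e2]
    apply Nat.Coprime.pow_right
    rw [Nat.coprime_two_right]
    exact ⟨2 * B' + 1, by ring⟩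
  obtain ⟨q, hq1, hqp, hq2⟩ := Nat.forall_exists_prime_gt_and_modEq (4 * B' + 3) (q := 8 * B)
    (a := 4 * B' + 3) (by omega) hcop
  have h3 := (Nat.modEq_iff_dvd' hq1.le).mp hq2.symm
  obtain ⟨j, hj⟩ := h3
  have hq : q = 4 * B' + 3 + 8 * B * j := by omega
  -- e = B (1 + 2 j) = e' + 1
  set e' := B' + 2 * B * j with he'
  have hqe : q = 4 * e' + 3 := by rw [hq, he']; ring
  have hee : e' + 1 = B * (1 + 2 * j) := by rw [he', hB']; ring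
  refine ⟨q, hqp, by omega, (2 * e' + 1) ^ 2 * (1 + 2 * j) * q, ?_, ?_⟩
  · apply Odd.mul
    · apply Odd.mul
      · exact Odd.pow ⟨e', by ring⟩
      · exact ⟨j, by ring⟩
    · exact ⟨2 * e' + 1, by rw [hqe]; ring⟩
  · rw [e3]
    have h4 : q ^ 2 = 8 * ((2 * e' + 1) * (e' + 1)) + 1 := by rw [hqe]; ring
    have h5 : q ^ 2 = 2 * (q * (2 * e' + 1)) + q := by rw [hqe]; ring
    have h6 : q ^ 2 - 1 = 8 * ((2 * e' + 1) * (e' + 1)) := by rw [h4, Nat.add_sub_cancel]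
    have h7 : q ^ 2 - q = 2 * (q * (2 * e' + 1)) := by
      conv_lhs => rw [h5]
      rw [Nat.add_sub_cancel]
    rw [h6, h7, hee]
    ring

end Cfsg.Agent.Lib.H88McNT2
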