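import Cfsg.Agent.Lib.H88McDefs
import Cfsg.Agent.Lib.H88McNT2

set_option autoImplicit false

namespace Cfsg.Agent.Lib.H88McCard2

open Cfsg Cfsg.Agent.Lib.H88McDefs Matrix

theorem fact_two_pow_mul (a r : ℕ) (hr : Odd r) : (2 ^ a * r).factorization 2 = a := by
  have h2 : ¬ 2 ∣ r := by
    intro h
    exact (Nat.not_even_iff_odd.mpr hr) (even_iff_two_dvd.mpr h)
  rw [Nat.factorization_mul (by positivity) hr.pos.ne', Nat.factorization_pow]
  simp [Nat.factorization_eq_zero_of_not_dvd h2, Nat.prime_two.factorization_self]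

/-- `H88McNT2.exists_prime_gl n hn` gives `q`; `F = ZMod q`. -/
theorem exists_field_gl (n : ℕ) (hn : 3 ≤ n) :
    ∃ (q : ℕ) (_ : Fact q.Prime), Fintype.card (ZMod q) % 4 = 3 ∧
      ∀ P : Sylow 2 (GL (Fin 2) (ZMod q)), Nat.card P = 2 ^ (n + 1) := by
  obtain ⟨q, hq, h4, r, hr, he⟩ := H88McNT2.exists_prime_gl n hn
  haveI : Fact q.Prime := ⟨hq⟩
  refine ⟨q, ⟨hq⟩, by rw [ZMod.card]; exact h4, fun P => ?_⟩
  rw [Sylow.card_eq_multiplicity, Matrix.card_GL_field, Fin.prod_univ_two, ZMod.card]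
  simp only [Fin.val_zero, Fin.val_one, pow_zero, pow_one]
  rw [he, fact_two_pow_mul _ _ hr]

end Cfsg.Agent.Lib.H88McCard2
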