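import Cfsg.Agent.Lib.H88McDefs

set_option autoImplicit false

namespace Cfsg.Agent.Lib.H88McChain

open Cfsg Cfsg.Agent.Lib.H88McDefs

/-- ABSTRACT CHAIN LEMMA. -/
theorem not_ss {Ω : Type*} [Group Ω] {S : Subgroup Ω} (F : FusionSystem S) (C : Set Ω) (hne : C.Nonempty)
    (hCS : C ⊆ (S : Set Ω)) (h1 : (1 : Ω) ∉ C)
    (hcl : ∀ T : Subgroup Ω, F.StronglyClosed T → ∀ a ∈ C, a ∈ T → C ⊆ (T : Set Ω))
    (htc : ∀ T : Subgroup Ω, F.StronglyClosed T → (∀ a ∈ C, a ∉ T) → ∀ x ∈ S,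
      ¬ C ⊆ ((T ⊔ Subgroup.zpowers x : Subgroup Ω) : Set Ω)) : ¬ SS F := by
  rintro ⟨m, c, h0, hm, hsc, hstep⟩
  have key : ∀ i : ℕ, ∀ hi : i < m + 1, ∀ a ∈ C, a ∉ c ⟨i, hi⟩ := by
    intro i
    induction i with
    | zero =>
      intro hi a ha hac
      have : c ⟨0, hi⟩ = ⊥ := h0
      rw [this, Subgroup.mem_bot] at hac
      exact h1 (hac ▸ ha)
    | succ i ih =>
      intro hi a ha hac
      have hi' : i < m := by omega
      obtain ⟨-, x, hx, hxe⟩ := hstep ⟨i, hi'⟩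
      have e1 : (⟨i, hi'⟩ : Fin m).succ = ⟨i + 1, hi⟩ := rfl
      have e2 : (⟨i, hi'⟩ : Fin m).castSucc = ⟨i, by omega⟩ := rfl
      rw [e1, e2] at hxe
      have hsub := hcl _ (hsc ⟨i + 1, hi⟩) a ha hac
      rw [hxe] at hsub
      exact htc _ (hsc ⟨i, by omega⟩) (ih (by omega)) x hx hsub
  obtain ⟨a, ha⟩ := hne
  apply key m (by omega) a ha
  have : c ⟨m, by omega⟩ = S := hm
  rw [this]
  exact hCS ha

end Cfsg.Agent.Lib.H88McChain
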