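import Cfsg.Agent.Lib.H88McDefs

set_option autoImplicit false

namespace Cfsg.Agent.Lib.H88McCongr1

open Cfsg Cfsg.Agent.Lib.H88McDefs

/-- `TC` transports along an isomorphism. -/
theorem tc_congr {X Y : Type*} [Group X] [Group Y] (e : X ≃* Y) (C : Set X) (h : TC C) : TC (e '' C) := by
  intro T hT hav y hsub
  apply h (T.comap e.toMonoidHom) (hT.comap _) (fun a ha haT => hav (e a) ⟨a, ha, rfl⟩ haT) (e.symm y)
  intro a ha
  have h1 : e a ∈ T ⊔ Subgroup.zpowers y := hsub ⟨a, ha, rfl⟩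
  have h2 : (T ⊔ Subgroup.zpowers y) = (T.comap e.toMonoidHom ⊔ Subgroup.zpowers (e.symm y)).map e.toMonoidHom := by
    rw [Subgroup.map_sup, Subgroup.map_comap_eq_self_of_surjective (f := e.toMonoidHom) e.surjective, MonoidHom.map_zpowers]
    simp
  rw [h2] at h1
  obtain ⟨b, hb, hba⟩ := h1
  have : b = a := e.injective hba
  exact this ▸ hb

end Cfsg.Agent.Lib.H88McCongr1
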