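import Cfsg.Agent.Lib.H88McDefs
import Cfsg.Agent.Lib.H88McCongr1

set_option autoImplicit false

namespace Cfsg.Agent.Lib.H88McCongr

open Cfsg Cfsg.Agent.Lib.H88McDefs

/-- `Bad` transports along an isomorphism. -/
theorem bad_congr {p : ℕ} {X Y : Type*} [Group X] [Group Y] (e : X ≃* Y) (h : Bad p X) : Bad p Y := by
  obtain ⟨G, hG, hfin, ι, hι, ⟨P, hP⟩, C, hne, h1, hconj, htc⟩ := h
  refine ⟨G, hG, hfin, ι.comp e.symm.toMonoidHom, hι.comp e.symm.injective, ⟨P, ?_⟩, e '' C, hne.image _, ?_, ?_,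
    H88McCongr1.tc_congr e C htc⟩
  · rw [hP]
    ext g
    constructor
    · rintro ⟨x, rfl⟩
      exact ⟨e x, by simp⟩
    · rintro ⟨y, rfl⟩
      exact ⟨e.symm y, rfl⟩
  · rintro ⟨a, ha, hae⟩
    have : a = 1 := e.injective (by rw [hae, map_one])
    exact h1 (this ▸ ha)
  · rintro _ ⟨a, ha, rfl⟩ _ ⟨b, hb, rfl⟩
    simpa using hconj a ha b hb

end Cfsg.Agent.Lib.H88McCongr
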