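import Cfsg.Agent.Lib.H88McDefs
import Cfsg.Agent.Lib.Helper87Realized

set_option autoImplicit false

namespace Cfsg.Agent.Lib.H88McCritA

open Cfsg Cfsg.Agent.Lib.H88McDefs Cfsg.Agent.Lib.Helper87Realized Cfsg.Agent.Lib.Helper87Fusion

/-- In a system realized by `ι`, a strongly closed subgroup containing `a` contains every `b ∈ S` with `ι b` conjugate to `ι a` in `G`. -/
theorem mem_of_isConj {Ω : Type*} [Group Ω] {S : Subgroup Ω} {G : Type*} [Group G] {ι : S →* G}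
    {F : FusionSystem S} (hF : F.IsRealizedBy ι) {T : Subgroup Ω} (hT : F.StronglyClosed T)
    (a b : S) (hab : IsConj (ι a) (ι b)) (ha : (a : Ω) ∈ T) : (b : Ω) ∈ T := by
  obtain ⟨g, hg⟩ := isConj_iff.mp hab
  have hP : Subgroup.zpowers (a : Ω) ≤ S := by
    rw [Subgroup.zpowers_le]; exact a.2
  have hPT : Subgroup.zpowers (a : Ω) ≤ T := by
    rw [Subgroup.zpowers_le]; exact ha
  have hpow : ∀ k : ℤ, iot ι ((a : Ω) ^ k) = (ι a) ^ k := by
    intro k
    have : ((a : Ω) ^ k) = ((a ^ k : S) : Ω) := by simp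
    rw [this, iot_of_mem ι (a ^ k).2, ← map_zpow]
  have hmap : IsMap F (Subgroup.zpowers (a : Ω)) (fun x => kap ι (g * iot ι x * g⁻¹)) := by
    rw [isMap_realized_iff hF]
    have hr : ∀ x ∈ Subgroup.zpowers (a : Ω), g * iot ι x * g⁻¹ ∈ ι.range := by
      rintro x ⟨k, rfl⟩
      beta_reduce
      rw [hpow k, ← conj_zpow, hg, ← map_zpow]
      exact ⟨_, rfl⟩
    exact ⟨hP, fun x hx => (kap_spec ι (hr x hx)).1, g, fun x hx => (kap_spec ι (hr x hx)).2⟩
  obtain ⟨φ, hφ, hf⟩ := hmap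
  have h1 := hT.2 _ hPT φ hφ ⟨a, Subgroup.mem_zpowers _⟩
  rw [hf] at h1
  have h2 : kap ι (g * iot ι (a : Ω) * g⁻¹) = (b : Ω) := by
    rw [iot_of_mem ι a.2]
    have : ι ⟨(a : Ω), a.2⟩ = ι a := rfl
    rw [this, hg, ← iot_of_mem ι b.2]
    exact kap_iot hF.1 b.2
  rw [← h2]
  exact h1

end Cfsg.Agent.Lib.H88McCritA
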