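import Cfsg.Agent.Lib.H88McDefs

set_option autoImplicit false

namespace Cfsg.Agent.Lib.H88McCritB

open Cfsg Cfsg.Agent.Lib.H88McDefs

/-- transport of `TC` from `↥S` to subgroups of `Ω`. -/
theorem tc_transport {Ω : Type*} [Group Ω] {S : Subgroup Ω} (F : FusionSystem S) (C : Set S) (hC : TC C)
    (T : Subgroup Ω) (hT : F.StronglyClosed T) (hav : ∀ a ∈ Subtype.val '' C, a ∉ T) (x : Ω) (hx : x ∈ S) :
    ¬ (Subtype.val '' C : Set Ω) ⊆ ((T ⊔ Subgroup.zpowers x : Subgroup Ω) : Set Ω) := by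
  intro hsub
  have hn : (T.subgroupOf S).Normal := by
    constructor
    intro t ht s
    rw [Subgroup.mem_subgroupOf] at ht ⊢
    have h1 := hT.2 T le_rfl _ (F.conj_mem (P := T) (g := (s : Ω)) hT.1 s.2) ⟨t, ht⟩
    exact h1
  apply hC (T.subgroupOf S) hn (fun a ha haT => hav a ⟨a, ha, rfl⟩ (Subgroup.mem_subgroupOf.mp haT)) ⟨x, hx⟩
  intro a ha
  have h1 : (a : Ω) ∈ T ⊔ Subgroup.zpowers x := hsub ⟨a, ha, rfl⟩
  have h2 : (T ⊔ Subgroup.zpowers x) = (T.subgroupOf S ⊔ Subgroup.zpowers (⟨x, hx⟩ : S)).map S.subtype := by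
    rw [Subgroup.map_sup, Subgroup.subgroupOf_map_subtype, inf_of_le_left hT.1, MonoidHom.map_zpowers]
    rfl
  rw [h2] at h1
  obtain ⟨b, hb, hba⟩ := h1
  have : b = a := Subtype.ext hba
  exact this ▸ hb

end Cfsg.Agent.Lib.H88McCritB
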