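import Cfsg.Agent.Lib.H88McDefs

set_option autoImplicit false

namespace Cfsg.Agent.Lib.H88McSyl

open Cfsg Cfsg.Agent.Lib.H88McDefs

/-- A Sylow subgroup `P` of `G` with a fused set `C ⊆ P` is `Bad`: `ι = P.subtype`, range = `P`. -/
theorem bad_of_sylow {p : ℕ} {G : Type} [Group G] [Finite G] (P : Sylow p G) (C : Set G)
    (hne : ∃ c ∈ C, c ∈ P) (h1 : (1 : G) ∉ C) (hconj : ∀ a ∈ C, ∀ b ∈ C, IsConj a b)
    (htc : TC {c : ↥(P : Subgroup G) | (c : G) ∈ C}) : Bad p ↥(P : Subgroup G) := by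
  obtain ⟨c, hc, hcP⟩ := hne
  exact ⟨G, inferInstance, inferInstance, (P : Subgroup G).subtype, Subtype.val_injective,
    ⟨P, (Subgroup.range_subtype _).symm⟩, {c : ↥(P : Subgroup G) | (c : G) ∈ C}, ⟨⟨c, hcP⟩, hc⟩, h1,
    fun a ha b hb => hconj _ ha _ hb, htc⟩

end Cfsg.Agent.Lib.H88McSyl
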