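import Cfsg.Agent.Lib.H88McDefs

set_option autoImplicit false

namespace Cfsg.Agent.Lib.H88McTC

open Cfsg Cfsg.Agent.Lib.H88McDefs

/-- If `C` contains two non-commuting elements and every normal subgroup avoiding `C` is central, then `TC C`. -/
theorem tc_of_central {X : Type*} [Group X] (C : Set X) (a b : X) (ha : a ∈ C) (hb : b ∈ C) (hab : a * b ≠ b * a)
    (h : ∀ T : Subgroup X, T.Normal → (∀ c ∈ C, c ∉ T) → T ≤ Subgroup.center X) : TC C := by
  intro T hT hav x hsub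
  have hTc := h T hT hav
  have key : ∀ g ∈ T ⊔ Subgroup.zpowers x, ∃ t ∈ Subgroup.center X, ∃ k : ℤ, g = t * x ^ k := by
    intro g hg
    have hg' : g ∈ ((T ⊔ Subgroup.zpowers x : Subgroup X) : Set X) := hg
    rw [Subgroup.normal_mul] at hg'
    obtain ⟨t, ht, y, hy, rfl⟩ := Set.mem_mul.mp hg'
    obtain ⟨k, rfl⟩ := Subgroup.mem_zpowers_iff.mp hy
    exact ⟨t, hTc ht, k, rfl⟩
  obtain ⟨t, ht, k, rfl⟩ := key a (hsub ha)
  obtain ⟨s, hs, l, rfl⟩ := key b (hsub hb)
  apply hab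
  have e1 := Subgroup.mem_center_iff.mp ht
  have e2 := Subgroup.mem_center_iff.mp hs
  calc t * x ^ k * (s * x ^ l) = t * (x ^ k * s) * x ^ l := by group
    _ = t * (s * x ^ k) * x ^ l := by rw [e2]
    _ = (t * s) * (x ^ k * x ^ l) := by group
    _ = (s * t) * (x ^ l * x ^ k) := by rw [← e1 s, ← zpow_add, ← zpow_add, add_comm]
    _ = s * (t * x ^ l) * x ^ k := by group
    _ = s * (x ^ l * t) * x ^ k := by rw [e1]
    _ = s * x ^ l * (t * x ^ k) := by group

end Cfsg.Agent.Lib.H88McTC
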