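import Cfsg.Agent.Lib.H88McDefs
import Cfsg.Agent.Lib.H88McSyl
import Cfsg.Agent.Lib.H88McTC
import Cfsg.Agent.Lib.Helper41SL2Inv
import Cfsg.Agent.Lib.Helper7Dih
import Cfsg.Agent.Lib.Helper41PSL2Syl
import Cfsg.Agent.Lib.Helper7SL

set_option autoImplicit false

namespace Cfsg.Agent.Lib.H88McPSL

open Cfsg Cfsg.Agent.Lib.H88McDefs

open Matrix Cfsg.Agent.Lib.Helper46SL2 Cfsg.Agent.Lib.Helper41SL2

local notation "SL2" => Matrix.SpecialLinearGroup (Fin 2)
local notation "PSL2" => Matrix.ProjectiveSpecialLinearGroup (Fin 2)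

/-- STRUCTURE of the image `Q` in `PSL₂(F) = SL₂(F) ⧸ center` of a Sylow 2-subgroup `P` of `SL₂(F)` of order `2^(k+2)`:
`Q := P.mapSurjective (QuotientGroup.mk'_surjective _)` is a Sylow 2-subgroup; with `c, w` from `sylow_two_structure` (its `k` equals ours by the cardinality),
`u = mk c`, `v = mk w`:  `orderOf u = 2^k` (`u^(2^k) = mk (-1) = 1`; if `u^(2^(k-1)) = 1` then `c^(2^(k-1)) = ±1` (`mem_center_iff_eq`), so `c^(2^k) = 1`, false),
`orderOf v = 2` (`w * w = -1` central; `w` not central since `w ≠ ±1` as `w*w = -1 ≠ 1`), `v u v⁻¹ = u⁻¹`,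
`Nat.card Q = 2^(k+1)`: `Sylow.card_eq_multiplicity` with `|PSL2| * 2 = |SL2|` (`Subgroup.card_eq_card_quotient_mul_card_subgroup`, center = {1,-1} has 2 elements),
or `Q = P.map mk`, kernel of `mk` restricted to `P` is `{±1}`. -/
theorem psl_structure {F : Type} [Field F] [Fintype F] (hodd : Odd (Fintype.card F)) (P : Sylow 2 (SL2 F)) (k : ℕ)
    (hk : 1 ≤ k) (hP : Nat.card P = 2 ^ (k + 2)) :
    ∃ (Q : Sylow 2 (PSL2 F)) (u v : PSL2 F), u ∈ Q ∧ v ∈ Q ∧ Nat.card Q = 2 ^ (k + 1) ∧ orderOf u = 2 ^ k ∧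
      orderOf v = 2 ∧ v * u * v⁻¹ = u⁻¹ := by
  have h2 : (2 : F) ≠ 0 := two_ne_zero_of_odd hodd
  have : Fact (Nat.Prime 2) := ⟨Nat.prime_two⟩
  have hne : (1 : SL2 F) ≠ -1 := by
    intro hX
    have h5 : (1 : SL2 F) 0 0 = (-1 : SL2 F) 0 0 := by rw [← hX]
    rw [Helper46SL2.neg_apply, one_00] at h5
    apply h2
    linear_combination h5
  obtain ⟨k', m, A, c, w, hk', hm, htA, hC, hcA, hord, hck, hwA, hww, hwc, hwn, hcP, hwP, hcard⟩ :=
    sylow_two_structure hodd P
  have hkk : k' = k := by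
    rw [hP] at hcard
    have := Nat.pow_right_injective (le_refl 2) hcard
    omega
  subst hkk
  have hsurj : Function.Surjective (proj F) := QuotientGroup.mk'_surjective _
  let Q : Sylow 2 (PSL2 F) := P.mapSurjective hsurj
  have hQ : (Q : Subgroup (PSL2 F)) = (P : Subgroup (SL2 F)).map (proj F) := Sylow.coe_mapSurjective hsurj P
  have hmemQ : ∀ x ∈ P, proj F x ∈ Q := by
    intro x hx
    show proj F x ∈ (Q : Subgroup (PSL2 F))
    rw [hQ]
    exact ⟨x, hx, rfl⟩
  have hneg : (-1 : SL2 F) ∈ P := by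
    rw [← hck]
    exact Subgroup.pow_mem _ hcP _
  have hZP : Subgroup.center (SL2 F) ≤ (P : Subgroup (SL2 F)) := by
    intro z hz
    rcases mem_center_iff_eq.1 hz with rfl | rfl
    · exact Subgroup.one_mem _
    · exact hneg
  have hinv : ∀ X : SL2 F, X * X = -1 → orderOf (proj F X) = 2 := by
    intro X hX
    apply orderOf_eq_prime
    · rw [← map_pow, sq, hX]
      exact (mk_eq_one_iff _).mpr (mem_center_iff_eq.mpr (Or.inr rfl))
    · intro h
      have h3 := mem_center_iff_eq.mp ((mk_eq_one_iff X).mp h)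
      have h4 : X * X = 1 := by rcases h3 with rfl | rfl <;> simp
      rw [h4] at hX
      exact hne hX
  refine ⟨Q, proj F c, proj F w, hmemQ c hcP, hmemQ w hwP, ?_, ?_, hinv w hww, ?_⟩
  · -- the order of `Q`
    have h3 : Nat.card Q = Nat.card ((P : Subgroup (SL2 F)).map (proj F)) := by
      show Nat.card (Q : Subgroup (PSL2 F)) = _
      rw [hQ]
    rw [h3]
    have h4 := Subgroup.card_mul_index ((P : Subgroup (SL2 F)).map (proj F))
    rw [Subgroup.index_map, QuotientGroup.ker_mk', sup_eq_left.2 hZP,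
      MonoidHom.range_eq_top.2 hsurj, Subgroup.index_top, mul_one] at h4
    have h5 := Subgroup.card_mul_index (P : Subgroup (SL2 F))
    have h6 := Subgroup.card_eq_card_quotient_mul_card_subgroup (Subgroup.center (SL2 F))
    rw [Cfsg.Agent.Lib.Helper7SL.card_center_SL_two hodd] at h6
    have h7 : Nat.card (SL2 F ⧸ Subgroup.center (SL2 F)) = Nat.card (PSL2 F) := rfl
    rw [h7, ← h4, ← h5] at h6
    have hP' : Nat.card (P : Subgroup (SL2 F)) = 2 ^ (k' + 2) := hP
    rw [hP'] at h6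
    have hidx : 0 < (P : Subgroup (SL2 F)).index := Nat.pos_of_ne_zero Subgroup.index_ne_zero_of_finite
    have h8 : (2 ^ (k' + 1) * 2) * (P : Subgroup (SL2 F)).index =
        (Nat.card ((P : Subgroup (SL2 F)).map (proj F)) * 2) * (P : Subgroup (SL2 F)).index := by
      calc (2 ^ (k' + 1) * 2) * (P : Subgroup (SL2 F)).index
          = 2 ^ (k' + 2) * (P : Subgroup (SL2 F)).index := by ring
        _ = _ := by rw [h6]; ring
    have h9 := Nat.eq_of_mul_eq_mul_right hidx h8
    omega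
  · -- the order of `u`
    obtain ⟨j, rfl⟩ : ∃ j, k' = j + 1 := ⟨k' - 1, by omega⟩
    apply orderOf_eq_prime_pow
    · intro h
      rw [← map_pow] at h
      have h3 := mem_center_iff_eq.mp ((mk_eq_one_iff _).mp h)
      have h4 : c ^ 2 ^ (j + 1) = 1 := by
        rw [pow_succ, pow_mul]
        rcases h3 with h3 | h3 <;> rw [h3] <;> simp
      rw [h4] at hck
      exact hne hck
    · rw [← map_pow, hck]
      exact (mk_eq_one_iff _).mpr (mem_center_iff_eq.mpr (Or.inr rfl))
  · rw [← map_inv, ← map_mul, ← map_mul, hwc, map_inv]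

end Cfsg.Agent.Lib.H88McPSL
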