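import Cfsg.Agent.Lib.H88McDefs
import Cfsg.Agent.Lib.H88McPSL
import Cfsg.Agent.Lib.Helper7Dih

set_option autoImplicit false

namespace Cfsg.Agent.Lib.H88McD1

open Cfsg Cfsg.Agent.Lib.H88McDefs

open Matrix Cfsg.Agent.Lib.Helper46SL2 Cfsg.Agent.Lib.Helper41SL2

local notation "SL2" => Matrix.SpecialLinearGroup (Fin 2)
local notation "PSL2" => Matrix.ProjectiveSpecialLinearGroup (Fin 2)

theorem dihedral_of_data_aux {Q : Type*} [Group Q] [Finite Q] (k : ℕ) (hk : 2 ≤ k) (u v : Q) (hcard : Nat.card Q = 2 ^ (k + 1))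
    (hu : orderOf u = 2 ^ k) (hv : orderOf v = 2) (hc : v * u * v⁻¹ = u⁻¹) : 
    orderOf (v * u) = 2 ∧ v ≠ v * u ∧ orderOf (v * (v * u)) = 2 ^ k ∧ Nat.card Q = 2 * 2 ^ k := by
  have hv2 : v * v = 1 := by
    have := pow_orderOf_eq_one v
    rwa [hv, pow_two] at this
  have hvinv : v⁻¹ = v := inv_eq_of_mul_eq_one_left hv2
  have hu1 : u ≠ 1 := by
    rintro rfl
    rw [orderOf_one] at hu
    have : 2 ^ 2 ≤ 2 ^ k := Nat.pow_le_pow_right (by norm_num) hk
    omega
  refine ⟨?_, ?_, ?_, ?_⟩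
  · apply orderOf_eq_prime
    · rw [pow_two]
      calc v * u * (v * u) = (v * u * v⁻¹) * u := by rw [hvinv]; group
        _ = 1 := by rw [hc, inv_mul_cancel]
    · intro h
      have h1 : u = v := by
        have := congrArg (fun z => v * z) h
        simp only [← mul_assoc, hv2, one_mul, mul_one] at this
        exact this
      rw [h1, hv] at hu
      have : 2 ^ 2 ≤ 2 ^ k := Nat.pow_le_pow_right (by norm_num) hk
      omega
  · intro h
    apply hu1
    have := congrArg (fun z => v * z) h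
    simp only [← mul_assoc, hv2, one_mul] at this
    exact this.symm
  · rw [← mul_assoc, hv2, one_mul, hu]
  · rw [hcard, pow_succ, mul_comm]

/-- abstract: a finite group `Q` of order `2^(k+1)`, `k ≥ 2`, with `u` of order `2^k`, an involution `v` inverting `u`, is `DihedralGroup (2^k)`:
`Helper7Dih.dihedral_of_involutions v (v * u)`: `(v u)(v u) = (v u v⁻¹) u = 1` (`v⁻¹ = v`), `v u ≠ 1` (else `u = v⁻¹` of order 2 ≠ 2^k), `v ≠ v u`, `v * (v * u) = u`. -/
theorem dihedral_of_data {Q : Type*} [Group Q] [Finite Q] (k : ℕ) (hk : 2 ≤ k) (u v : Q) (hcard : Nat.card Q = 2 ^ (k + 1))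
    (hu : orderOf u = 2 ^ k) (hv : orderOf v = 2) (hc : v * u * v⁻¹ = u⁻¹) : Nonempty (Q ≃* DihedralGroup (2 ^ k)) := by
  obtain ⟨h1, h2, h3, h4⟩ := dihedral_of_data_aux k hk u v hcard hu hv hc
  exact Cfsg.Agent.Lib.Helper7Dih.dihedral_of_involutions v (v * u) hv h1 h2 (2 ^ k) h3 h4

end Cfsg.Agent.Lib.H88McD1
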