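import Cfsg.Agent.Lib.H88McDefs

set_option autoImplicit false

namespace Cfsg.Agent.Lib.H88McTCI

open Cfsg Cfsg.Agent.Lib.H88McDefs

/-- an involution in `zpowers x` (x of finite order) is determined -/
theorem invol_unique {X : Type*} [Group X] [Finite X] (x a b : X) (ha : a ∈ Subgroup.zpowers x)
    (hb : b ∈ Subgroup.zpowers x) (hoa : orderOf a = 2) (hob : orderOf b = 2) : a = b := by
  classical
  have hcyc : IsCyclic (Subgroup.zpowers x) := inferInstance
  letI : Fintype (Subgroup.zpowers x) := Fintype.ofFinite _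
  have h1 := IsCyclic.card_pow_eq_one_le (α := Subgroup.zpowers x) (n := 2) (by norm_num)
  by_contra hab
  have ha2 : a ^ 2 = 1 := by rw [← hoa]; exact pow_orderOf_eq_one a
  have hb2 : b ^ 2 = 1 := by rw [← hob]; exact pow_orderOf_eq_one b
  have ha1 : a ≠ 1 := by rintro rfl; simp at hoa
  have hb1 : b ≠ 1 := by rintro rfl; simp at hob
  have h2 : ({1, ⟨a, ha⟩, ⟨b, hb⟩} : Finset (Subgroup.zpowers x)) ⊆
      Finset.univ.filter (fun u : Subgroup.zpowers x => u ^ 2 = 1) := by
    intro u hu
    simp only [Finset.mem_insert, Finset.mem_singleton] at hu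
    simp only [Finset.mem_filter, Finset.mem_univ, true_and]
    rcases hu with rfl | rfl | rfl
    · simp
    · exact Subtype.ext ha2
    · exact Subtype.ext hb2
  have h3 := Finset.card_le_card h2
  have h4 : ({1, ⟨a, ha⟩, ⟨b, hb⟩} : Finset (Subgroup.zpowers x)).card = 3 := by
    rw [Finset.card_insert_of_notMem, Finset.card_insert_of_notMem, Finset.card_singleton]
    · simp only [Finset.mem_singleton]
      intro h; exact hab (congrArg Subtype.val h)
    · simp only [Finset.mem_insert, Finset.mem_singleton]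
      rintro (h | h)
      · exact ha1 (congrArg Subtype.val h).symm
      · exact hb1 (congrArg Subtype.val h).symm
  have h5 : (Finset.univ.filter (fun u : Subgroup.zpowers x => u ^ 2 = 1)).card ≤ 2 := by
    convert h1
  omega

theorem tc_involutions {X : Type*} [Group X] [Finite X] (hX : IsPGroup 2 X) (a b : X) (ha : orderOf a = 2)
    (hb : orderOf b = 2) (hab : a ≠ b) : TC {c : X | orderOf c = 2} := by
  intro T _ hav x hsub
  have hT : T = ⊥ := by
    rw [eq_bot_iff]
    intro t ht
    rw [Subgroup.mem_bot]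
    by_contra ht1
    obtain ⟨j, hj⟩ := IsPGroup.iff_orderOf.mp hX t
    have hj0 : j ≠ 0 := by
      rintro rfl
      rw [pow_zero, orderOf_eq_one_iff] at hj
      exact ht1 hj
    obtain ⟨i, rfl⟩ : ∃ i, j = i + 1 := ⟨j - 1, by omega⟩
    apply hav (t ^ 2 ^ i) _ (pow_mem ht _)
    show orderOf (t ^ 2 ^ i) = 2
    rw [orderOf_pow_of_dvd (by positivity) (by rw [hj]; exact pow_dvd_pow 2 (by omega)), hj, pow_succ,
      Nat.mul_div_cancel_left _ (by positivity)]
  rw [hT, bot_sup_eq] at hsub
  exact hab (invol_unique x a b (hsub ha) (hsub hb) ha hb)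

end Cfsg.Agent.Lib.H88McTCI
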