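import Cfsg.Agent.Lib.H88McDefs
import Cfsg.Agent.Lib.H88McPSL
import Cfsg.Agent.Lib.H88McTCI

set_option autoImplicit false

namespace Cfsg.Agent.Lib.H88McD2

open Cfsg Cfsg.Agent.Lib.H88McDefs

open Matrix Cfsg.Agent.Lib.Helper46SL2 Cfsg.Agent.Lib.Helper41SL2

local notation "SL2" => Matrix.SpecialLinearGroup (Fin 2)
local notation "PSL2" => Matrix.ProjectiveSpecialLinearGroup (Fin 2)

/-- a Sylow 2-subgroup `Q` of `PSL₂(F)` (|F| odd) containing two distinct involutions is `Bad 2`: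
`bad_of_sylow Q {g | orderOf g = 2}`; fused by `Helper41SL2.isConj_of_orderOf_two h2`; `TC` by `tc_involutions` (`Q.2`; `Subgroup.orderOf_mk`/`Subgroup.orderOf_coe` to move orders between `Q` and `PSL2`;
the set `{c : Q | (c : PSL2 F) ∈ {g | orderOf g = 2}}` equals `{c | orderOf c = 2}`). -/
theorem bad_psl2 {F : Type} [Field F] [Fintype F] (hodd : Odd (Fintype.card F)) (Q : Sylow 2 (PSL2 F))
    (a b : PSL2 F) (ha : a ∈ Q) (hb : b ∈ Q) (hoa : orderOf a = 2) (hob : orderOf b = 2) (hab : a ≠ b) :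
    Bad 2 ↥(Q : Subgroup (PSL2 F)) := by
  have h2 : (2 : F) ≠ 0 := Cfsg.Agent.Lib.Helper41SL2.two_ne_zero_of_odd hodd
  refine H88McSyl.bad_of_sylow Q {g | orderOf g = 2} ⟨a, hoa, ha⟩ ?_ ?_ ?_
  · intro h
    have h' : orderOf (1 : PSL2 F) = 2 := h
    rw [orderOf_one] at h'
    omega
  · intro x hx y hy
    exact isConj_of_orderOf_two h2 hx hy
  · have hset : {c : ↥(Q : Subgroup (PSL2 F)) | (c : PSL2 F) ∈ {g | orderOf g = 2}} =
        {c | orderOf c = 2} := by
      ext c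
      simp only [Set.mem_setOf_eq, Subgroup.orderOf_coe]
    rw [hset]
    exact H88McTCI.tc_involutions Q.2 ⟨a, ha⟩ ⟨b, hb⟩ (by rw [Subgroup.orderOf_mk]; exact hoa)
      (by rw [Subgroup.orderOf_mk]; exact hob) (by intro h; exact hab (congrArg Subtype.val h))

end Cfsg.Agent.Lib.H88McD2
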