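import Cfsg.Agent.Lib.H88McDefs
import Cfsg.Agent.Lib.H88McPSL
import Cfsg.Agent.Lib.H88McCard
import Cfsg.Agent.Lib.H88McCongr
import Cfsg.Agent.Lib.H88McD1
import Cfsg.Agent.Lib.H88McD2

set_option autoImplicit false

namespace Cfsg.Agent.Lib.H88McD

open Cfsg Cfsg.Agent.Lib.H88McDefs

open Matrix Cfsg.Agent.Lib.Helper46SL2 Cfsg.Agent.Lib.Helper41SL2

local notation "SL2" => Matrix.SpecialLinearGroup (Fin 2)
local notation "PSL2" => Matrix.ProjectiveSpecialLinearGroup (Fin 2)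

/-- `H88McCard.exists_field_sl k`, `F = ZMod q`, any Sylow `P` of `SL2 F` has order `2^(k+2)`; `H88McPSL.psl_structure hodd P k _ hP` gives `Q u v`;
`H88McD1.dihedral_of_data k hk ⟨u,_⟩ ⟨v,_⟩` on `↥Q` (orders via `Subgroup.orderOf_mk`; relation via `Subtype.ext`);
`H88McD2.bad_psl2 hodd Q v (u^(2^(k-1)))` (order 2: `orderOf_pow_of_dvd`/`orderOf_pow'`; `v ≠ u^(2^(k-1))`: otherwise `v` commutes with `u`, so `u = u⁻¹`, `u^2 = 1`, but `orderOf u = 2^k ≥ 4`), `H88McCongr.bad_congr`. -/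
theorem bad_dihedral (k : ℕ) (hk : 2 ≤ k) : Bad 2 (DihedralGroup (2 ^ k)) := by
  obtain ⟨q, hqp, hodd, hP⟩ := H88McCard.exists_field_sl k (by omega)
  let P : Sylow 2 (SL2 (ZMod q)) := default
  obtain ⟨Q, u, v, huQ, hvQ, hcard, hou, hov, hrel⟩ :=
    H88McPSL.psl_structure hodd P k (by omega) (hP P)
  obtain ⟨e⟩ := H88McD1.dihedral_of_data (Q := ↥(Q : Subgroup (PSL2 (ZMod q)))) k hk ⟨u, huQ⟩ ⟨v, hvQ⟩
    hcard (by rw [Subgroup.orderOf_mk]; exact hou) (by rw [Subgroup.orderOf_mk]; exact hov)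
    (Subtype.ext hrel)
  obtain ⟨k', rfl⟩ : ∃ k', k = k' + 1 := ⟨k - 1, by omega⟩
  have hw : orderOf (u ^ 2 ^ k') = 2 := by
    rw [orderOf_pow_of_dvd (by positivity) (by rw [hou]; exact pow_dvd_pow 2 (by omega)), hou,
      pow_succ, Nat.mul_div_cancel_left _ (by positivity)]
  have hne : v ≠ u ^ 2 ^ k' := by
    intro h
    have hc : v * u = u * v := by
      rw [h, ← pow_succ, ← pow_succ']
    have h1 : u = u⁻¹ := by
      rw [← hrel, hc, mul_inv_cancel_right]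
    have h2 : u ^ 2 = 1 := by
      rw [pow_two]
      nth_rewrite 1 [h1]
      exact inv_mul_cancel u
    have h3 := orderOf_dvd_of_pow_eq_one h2
    rw [hou] at h3
    have h4 := Nat.le_of_dvd (by norm_num) h3
    have h5 : 2 ^ 2 ≤ 2 ^ (k' + 1) := Nat.pow_le_pow_right (by norm_num) hk
    omega
  exact H88McCongr.bad_congr e
    (H88McD2.bad_psl2 hodd Q v (u ^ 2 ^ k') hvQ (pow_mem huQ _) hov hw hne)

end Cfsg.Agent.Lib.H88McD
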