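import Cfsg.Agent.Lib.H88McDefs

set_option autoImplicit false

namespace Cfsg.Agent.Lib.H88McEasy

open Cfsg Cfsg.Agent.Lib.H88McDefs

/-- `⊥` and `S` are strongly closed in any fusion system (`F.le_of_mem`; a map from `R ≤ ⊥` sends `x = 1` to `1`). -/
theorem stronglyClosed_bot {Ω : Type*} [Group Ω] {S : Subgroup Ω} (F : FusionSystem S) : F.StronglyClosed ⊥ := by
  refine ⟨bot_le, ?_⟩
  intro R hR φ _ x
  have hx : (x : Ω) = 1 := by
    have := hR x.2
    rwa [Subgroup.mem_bot] at this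
  have hx1 : x = 1 := Subtype.ext hx
  rw [hx1, map_one]
  exact Subgroup.one_mem _

theorem stronglyClosed_self {Ω : Type*} [Group Ω] {S : Subgroup Ω} (F : FusionSystem S) : F.StronglyClosed S := by
  refine ⟨le_refl _, ?_⟩
  intro R _ φ hφ x
  exact (F.le_of_mem hφ).2 x

/-- `m = 1`, `c = ![⊥, S]`; generator `g` of `↥S`: `S = ⊥ ⊔ zpowers (g : Ω)`. -/
theorem ss_of_cyclic {Ω : Type*} [Group Ω] {S : Subgroup Ω} (F : FusionSystem S) (hc : IsCyclic ↥S) : SS F := by
  obtain ⟨g, hg⟩ := hc.exists_generator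
  refine ⟨1, ![⊥, S], rfl, rfl, ?_, ?_⟩
  · intro i
    fin_cases i
    · exact stronglyClosed_bot F
    · exact stronglyClosed_self F
  · intro i
    fin_cases i
    refine ⟨bot_le, (g : Ω), g.2, ?_⟩
    change S = ⊥ ⊔ Subgroup.zpowers (g : Ω)
    rw [bot_sup_eq]
    apply le_antisymm
    · intro s hs
      obtain ⟨k, hk⟩ := hg ⟨s, hs⟩
      refine ⟨k, ?_⟩
      have := congrArg Subtype.val hk
      simpa using this
    · rw [Subgroup.zpowers_le]
      exact g.2

end Cfsg.Agent.Lib.H88McEasy
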