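import Cfsg.Agent.Lib.H88McDefs
import Cfsg.Agent.Lib.Helper25SD
import Cfsg.Agent.Lib.H88McTC

set_option autoImplicit false

namespace Cfsg.Agent.Lib.H88McSDC

open Cfsg Cfsg.Agent.Lib.H88McDefs

open Cfsg.Agent.Lib.Helper25Split Cfsg.Agent.Lib.Helper25SD

/-- In Split coordinates of a quasi-dihedral group (`A = ZMod (2^(m+3))`, `σ = sg m : a ↦ (hh m - 1) * a`, `hh m = 2^(m+2)`), a central involution is `e (hh m)`.
`z = e a`: commuting with `y` gives `sg m a = a` (`y_conj`, `e_eq`/`f_eq`), `sg_fix`: `a = 0 ∨ a = hh m`; `a = 0` gives `z = 1`.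
`z = e a * y`: `(e a * y) * e 1 = e (a + sg m 1) * y` (`Split.fe`) vs `e 1 * (e a * y) = e (1 + a) * y` (`Split.ef`): `sg m 1 = 1` would give (sg_fix) `1 = 0 ∨ 1 = hh m`, both false (`odd_ne_even`: `1 = 2*0+1`, `hh m = 2 * ww m`, `0 = 2 * 0`). -/
theorem central_involution {S : Type*} [Group S] {m : ℕ} {e : ZMod (2 ^ (m + 3)) → S} {y : S} (h : Split e y (sg m))
    (z : S) (hz : z ≠ 1) (hzc : ∀ g : S, g * z = z * g) : z = e (hh m) := by
  rcases h.cover z with ⟨a, rfl⟩ | ⟨a, rfl⟩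
  · have h1 := hzc y
    rw [h.y_conj, h.f_eq, sg_fix] at h1
    rcases h1 with h1 | h1
    · exfalso
      apply hz
      rw [h1, h.e_zero]
    · rw [h1]
  · exfalso
    have h1 := hzc (e 1)
    rw [h.ef, h.fe, h.f_eq] at h1
    have h2 : sg m 1 = 1 := by linear_combination -h1
    rw [sg_fix] at h2
    rcases h2 with h2 | h2
    · apply odd_ne_even m 0 0
      rw [mul_zero, zero_add]
      exact h2
    · apply odd_ne_even m 0 (ww m)
      rw [mul_zero, zero_add, two_ww]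
      exact h2

end Cfsg.Agent.Lib.H88McSDC
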