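import Cfsg.Agent.Lib.H88McDefs
import Cfsg.Agent.Lib.Helper25SD
import Cfsg.Agent.Lib.H88McTC

set_option autoImplicit false

namespace Cfsg.Agent.Lib.H88McSDT

open Cfsg Cfsg.Agent.Lib.H88McDefs

open Cfsg.Agent.Lib.Helper25Split Cfsg.Agent.Lib.Helper25SD

/-- `TC {c | c * c = e (hh m)}` in Split coordinates.  Use `tc_of_central` with `a = e (ww m)` (`2 * ww = hh`), `b = e 1 * y` (`Split.ff`: `b * b = e (1 + sg m 1) = e (hh m * 1)`, `add_sg`).
Not commuting: `a * b = e (ww + 1) * y`, `b * a = e (1 + sg m ww) * y`, `sg m ww = hh*ww - ww = -ww` (`hh_ww`), and `ww = -ww` would give `hh = 2 ww = 0`.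
`T` normal avoiding `C`, `t ∈ T`:
(1) `t = e a`: claim `2 * a = 0` (then `a = 0 ∨ a = hh m` by `two_mul_eq_zero`, and `e 0 = 1`, `e (hh m)` are central: commute with `e b` and with `y` since `sg m (hh m) = hh m`).
    If `2 * a ≠ 0`: let `j` be minimal with `2^j * a = 0` (exists: `2^(m+3) * a = 0`), `j ≥ 2`; `a' = 2^(j-2) * a` has `2 * (2 * a') = 0`, `2 * a' ≠ 0`, so `2 * a' = hh m`, and `e a' = (e a)^(2^(j-2)) ∈ T` (`Split.e_nsmul`) lies in `C`.
(2) `t = e a * y`: `t * t = e (a + sg m a) = e (hh m * a)`; `parity`: `a = 2c+1` gives `t ∈ C` (`hh_mul_odd`).  `a = 2c`: `t * t = 1`;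
    `e 1 * t * (e 1)⁻¹ = e (a + 1 - sg m 1) * y ∈ T` (`conj_e_f`, normality), times `t`: `e (a + 1 - sg m 1 + sg m a) = e (2 - hh m)` (`hh_mul_even`) `∈ T`; by (1) `2 * (2 - hh m) = 4 = 0`, contradicting `four_ne_zero`. -/
theorem split_tc {S : Type*} [Group S] {m : ℕ} {e : ZMod (2 ^ (m + 3)) → S} {y : S} (h : Split e y (sg m)) :
    TC {c : S | c * c = e (hh m)} := by
  have hww : ww m ≠ sg m (ww m) := by
    intro h0
    rcases (sg_fix m).1 h0.symm with h1 | h1
    · apply hh_ne_zero m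
      rw [← two_ww, h1, mul_zero]
    · apply hh_ne_zero m
      have h2 := two_ww m
      rw [h1, two_hh] at h2
      exact h2.symm
  apply Cfsg.Agent.Lib.H88McTC.tc_of_central _ (e (ww m)) (e 1 * y)
  · show e (ww m) * e (ww m) = e (hh m)
    rw [h.ee, ← two_mul, two_ww]
  · show (e 1 * y) * (e 1 * y) = e (hh m)
    rw [h.ff, add_sg, mul_one]
  · rw [h.ef, h.fe, Ne, h.f_eq]
    intro h0
    apply hww
    have : ww m + 1 = sg m (ww m) + 1 := h0.trans (add_comm _ _)
    exact add_right_cancel this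
  · intro T hT hav
    have c1 : ∀ (j : ℕ) (a : ZMod (2 ^ (m + 3))), 2 ^ j * a = 0 → e a ∈ T → 2 * a = 0 := by
      intro j
      induction j with
      | zero =>
        intro a ha _
        rw [pow_zero, one_mul] at ha
        rw [ha, mul_zero]
      | succ j ih =>
        intro a ha haT
        have h1 : 2 ^ j * (2 * a) = 0 := by rw [← ha]; ring
        have h2 : e (2 * a) ∈ T := by
          rw [two_mul, h.e_add]
          exact T.mul_mem haT haT
        rcases two_mul_eq_zero m (ih _ h1 h2) with h3 | h3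
        · exact h3
        · exfalso
          apply hav (e a) _ haT
          show e a * e a = e (hh m)
          rw [h.ee, ← two_mul, h3]
    have c1' : ∀ a : ZMod (2 ^ (m + 3)), e a ∈ T → 2 * a = 0 := by
      intro a
      apply c1 (m + 3)
      have : (2 : ZMod (2 ^ (m + 3))) ^ (m + 3) = ((2 ^ (m + 3) : ℕ) : ZMod (2 ^ (m + 3))) := by push_cast; rfl
      rw [this, ZMod.natCast_self, zero_mul]
    have c2 : ∀ a : ZMod (2 ^ (m + 3)), e a * y ∉ T := by
      intro a haT
      obtain ⟨c, rfl | rfl⟩ := parity m a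
      · have h1 : e 1 * (e (2 * c) * y) * (e 1)⁻¹ ∈ T := hT.conj_mem _ haT _
        rw [h.conj_e_f] at h1
        have h2 := T.mul_mem h1 haT
        rw [h.ff] at h2
        have h3 := c1' _ h2
        apply four_ne_zero m
        have h4 := add_sg m (2 * c)
        rw [hh_mul_even] at h4
        have h5 := sub_sg m 1
        have h6 := two_hh m
        linear_combination h3 - 2 * h4 - 2 * h5 + h6
      · apply hav _ _ haT
        show (e (2 * c + 1) * y) * (e (2 * c + 1) * y) = e (hh m)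
        rw [h.ff, add_sg, hh_mul_odd]
    intro t ht
    rcases h.cover t with ⟨a, rfl⟩ | ⟨a, rfl⟩
    · have hfix : sg m a = a := (sg_fix m).2 (two_mul_eq_zero m (c1' a ht))
      rw [Subgroup.mem_center_iff]
      intro g
      rcases h.cover g with ⟨b, rfl⟩ | ⟨b, rfl⟩
      · rw [h.ee, h.ee, add_comm]
      · rw [h.fe, h.ef, hfix, add_comm]
    · exact absurd ht (c2 a)

end Cfsg.Agent.Lib.H88McSDT
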