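import Cfsg.Agent.Lib.H88McDefs
import Cfsg.Agent.Lib.Helper25SD
import Cfsg.Agent.Lib.H88McTC
import Cfsg.Agent.Lib.H88McSDC
import Cfsg.Agent.Lib.H88McSDT

set_option autoImplicit false

namespace Cfsg.Agent.Lib.H88McSDTC

open Cfsg Cfsg.Agent.Lib.H88McDefs

open Cfsg.Agent.Lib.Helper25Split Cfsg.Agent.Lib.Helper25SD Cfsg.Agent.Lib.H88McSDC Cfsg.Agent.Lib.H88McSDT

/-- intrinsic form: `exists_split`, `central_involution`, `split_tc`. -/
theorem qd_tc {X : Type*} [Group X] [Finite X] (h : Cfsg.IsQuasiDihedral X) (z : X) (hz : z ≠ 1)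
    (hzc : ∀ g : X, g * z = z * g) : TC {c : X | c * c = z} := by
  obtain ⟨m, e, y, -, hs⟩ := exists_split h
  rw [central_involution hs z hz hzc]
  exact split_tc hs

/-- there is an element with `c * c = z` (needed for nonemptiness): `e (ww m)`. -/
theorem qd_exists {X : Type*} [Group X] [Finite X] (h : Cfsg.IsQuasiDihedral X) (z : X) (hz : z ≠ 1)
    (hzc : ∀ g : X, g * z = z * g) : ∃ c : X, c * c = z := by
  obtain ⟨m, e, y, -, hs⟩ := exists_split h
  rw [central_involution hs z hz hzc]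
  exact ⟨e (ww m), by rw [← hs.e_add, ← two_mul, two_ww]⟩

end Cfsg.Agent.Lib.H88McSDTC
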