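import Cfsg.Agent.Lib.H88McDefs
import Cfsg.Agent.Lib.H88McSyl
import Cfsg.Agent.Lib.H88McSDTC
import Cfsg.Agent.Lib.Helper6GL2Syl4
import Cfsg.Agent.Lib.Helper41SL2Inv

set_option autoImplicit false

namespace Cfsg.Agent.Lib.H88McGL1

open Cfsg Cfsg.Agent.Lib.H88McDefs

open Matrix Cfsg.Agent.Lib.Helper46SL2 Cfsg.Agent.Lib.Helper41SL2 Cfsg.Agent.Lib.Helper6GL2Syl

local notation "SL2" => Matrix.SpecialLinearGroup (Fin 2)

/-- In `GL₂(F)`, `|F| ≡ 3 mod 4`, any `g` with `g * g = -1` comes from `SL₂` with trace `0`.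
Entries `a b c d` of `g`: `a²+bc = -1`, `b(a+d) = 0`, `c(a+d) = 0`, `d²+bc = -1`.  If `a + d ≠ 0` then `b = c = 0`, `a² = -1`, contradicting
`FiniteField.isSquare_neg_one_iff` (`IsSquare (-1) ↔ card % 4 ≠ 3`).  So `d = -a`, `det = -a² - bc = 1` (`Matrix.det_fin_two`). -/
theorem exists_sl_of_sq {F : Type*} [Field F] [Fintype F] (hq : Fintype.card F % 4 = 3) (g : GL (Fin 2) F)
    (hg : g * g = -1) : ∃ X : SL2 F, tr X = 0 ∧ SpecialLinearGroup.toGL X = g := by
  have hM : (g : Matrix (Fin 2) (Fin 2) F) * (g : Matrix (Fin 2) (Fin 2) F) = -1 := by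
    have := congrArg (fun u : GL (Fin 2) F => (u : Matrix (Fin 2) (Fin 2) F)) hg
    simpa using this
  set M := (g : Matrix (Fin 2) (Fin 2) F) with hMdef
  have h00 : M 0 0 * M 0 0 + M 0 1 * M 1 0 = -1 := by
    have := congrFun (congrFun hM 0) 0
    simpa [Matrix.mul_apply, Fin.sum_univ_two] using this
  have h01 : M 0 0 * M 0 1 + M 0 1 * M 1 1 = 0 := by
    have := congrFun (congrFun hM 0) 1
    simpa [Matrix.mul_apply, Fin.sum_univ_two] using this
  have h10 : M 1 0 * M 0 0 + M 1 1 * M 1 0 = 0 := by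
    have := congrFun (congrFun hM 1) 0
    simpa [Matrix.mul_apply, Fin.sum_univ_two] using this
  have hns : ¬ IsSquare (-1 : F) := by
    rw [FiniteField.isSquare_neg_one_iff]
    simp [hq]
  have htr : M 0 0 + M 1 1 = 0 := by
    by_contra hne
    have hb : M 0 1 = 0 := by
      have : M 0 1 * (M 0 0 + M 1 1) = 0 := by linear_combination h01
      exact (mul_eq_zero.mp this).resolve_right hne
    apply hns
    refine ⟨M 0 0, ?_⟩
    rw [hb] at h00
    linear_combination -h00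
  have hdet : M.det = 1 := by
    rw [Matrix.det_fin_two]
    have hd : M 1 1 = - M 0 0 := by linear_combination htr
    rw [hd]
    linear_combination -h00
  refine ⟨⟨M, hdet⟩, htr, ?_⟩
  apply Units.ext
  rfl

/-- `exists_sl_of_sq` twice, `Helper41SL2.isConj_of_tr_eq_zero h2`, `MonoidHom.map_isConj SpecialLinearGroup.toGL`. -/
theorem isConj_of_sq {F : Type*} [Field F] [Fintype F] (hq : Fintype.card F % 4 = 3) (g h : GL (Fin 2) F)
    (hg : g * g = -1) (hh : h * h = -1) : IsConj g h := by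
  obtain ⟨X, hX, rfl⟩ := exists_sl_of_sq hq g hg
  obtain ⟨Y, hY, rfl⟩ := exists_sl_of_sq hq h hh
  have h2 : (2 : F) ≠ 0 := by
    intro h2
    have hns : ¬ IsSquare (-1 : F) := by
      rw [FiniteField.isSquare_neg_one_iff]
      simp [hq]
    apply hns
    refine ⟨1, ?_⟩
    linear_combination -h2
  exact (SpecialLinearGroup.toGL : SL2 F →* GL (Fin 2) F).map_isConj (isConj_of_tr_eq_zero h2 hX hY)

end Cfsg.Agent.Lib.H88McGL1
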