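import Cfsg.Agent.Lib.H88McDefs
import Cfsg.Agent.Lib.H88McSyl
import Cfsg.Agent.Lib.H88McSDTC
import Cfsg.Agent.Lib.Helper6GL2Syl4
import Cfsg.Agent.Lib.Helper41SL2Inv

set_option autoImplicit false

namespace Cfsg.Agent.Lib.H88McGL2

open Cfsg Cfsg.Agent.Lib.H88McDefs

open Matrix Cfsg.Agent.Lib.Helper46SL2 Cfsg.Agent.Lib.Helper41SL2 Cfsg.Agent.Lib.Helper6GL2Syl

local notation "SL2" => Matrix.SpecialLinearGroup (Fin 2)

/-- a central element of 2-power order lies in every Sylow 2-subgroup: `zpowers z` is a 2-group, `IsPGroup.exists_le_sylow` gives `Q ≥ zpowers z`;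
`P = g • Q` (`MulAction.exists_smul_eq`), `z = g z g⁻¹ ∈ P` (`Sylow.smul_def`, `Subgroup.mem_pointwise_smul_iff_inv_smul_mem`/`Sylow.mem_smul`?). -/
theorem central_mem_sylow {G : Type*} [Group G] [Finite G] (P : Sylow 2 G) (z : G) (hz : z * z = 1)
    (hzc : ∀ g : G, g * z = z * g) : z ∈ P := by
  haveI : Fact (Nat.Prime 2) := ⟨Nat.prime_two⟩
  have hp : IsPGroup 2 (Subgroup.zpowers z) := by
    rintro ⟨x, hx⟩
    obtain ⟨k, rfl⟩ := Subgroup.mem_zpowers_iff.1 hx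
    refine ⟨1, Subtype.ext ?_⟩
    simp only [pow_one, Subgroup.coe_pow, Subgroup.coe_one]
    rw [← _root_.zpow_natCast, ← _root_.zpow_mul, mul_comm, _root_.zpow_mul, _root_.zpow_natCast, pow_two, hz, _root_.one_zpow]
  obtain ⟨Q, hQ⟩ := hp.exists_le_sylow
  obtain ⟨g, hg⟩ := MulAction.exists_smul_eq G Q P
  have hzQ : z ∈ (Q : Subgroup G) := hQ (Subgroup.mem_zpowers z)
  rw [← hg]
  change z ∈ ((g • Q : Sylow 2 G) : Subgroup G)
  rw [Sylow.coe_subgroup_smul, Subgroup.mem_pointwise_smul_iff_inv_smul_mem]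
  have : (MulAut.conj g)⁻¹ • z = z := by
    rw [← map_inv, MulAut.smul_def, MulAut.conj_apply, inv_inv, hzc g⁻¹, mul_assoc, inv_mul_cancel,
      mul_one]
  rw [this]
  exact hzQ

end Cfsg.Agent.Lib.H88McGL2
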