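import Cfsg.Agent.Lib.H88McDefs
import Cfsg.Agent.Lib.H88McSyl
import Cfsg.Agent.Lib.H88McSDTC
import Cfsg.Agent.Lib.Helper6GL2Syl4
import Cfsg.Agent.Lib.Helper41SL2Inv
import Cfsg.Agent.Lib.H88McGL1
import Cfsg.Agent.Lib.H88McGL2

set_option autoImplicit false

namespace Cfsg.Agent.Lib.H88McGL

open Cfsg Cfsg.Agent.Lib.H88McDefs

open Matrix Cfsg.Agent.Lib.Helper46SL2 Cfsg.Agent.Lib.Helper41SL2 Cfsg.Agent.Lib.Helper6GL2Syl

local notation "SL2" => Matrix.SpecialLinearGroup (Fin 2)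

/-- A Sylow 2-subgroup of `GL₂(F)`, `|F| ≡ 3 mod 4`, is `Bad 2`.
`bad_of_sylow P {g | g * g = -1}`; `Helper6GL2Syl.quasiDihedral_GL2 P hq : IsQuasiDihedral ↥P`; `z := ⟨-1, central_mem_sylow ..⟩ : ↥P` is central, `≠ 1` (char ≠ 2);
`qd_tc`/`qd_exists` with this `z`; the set `{c : ↥P | (c : GL) ∈ {g | g * g = -1}}` equals `{c | c * c = z}` (`Subtype.ext_iff`); fused by `isConj_of_sq`; `1 ∉ C` as `1 ≠ -1`. -/
theorem bad_gl2 {F : Type} [Field F] [Fintype F] (hq : Fintype.card F % 4 = 3) (P : Sylow 2 (GL (Fin 2) F)) :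
    Bad 2 ↥(P : Subgroup (GL (Fin 2) F)) := by
  have hodd : Odd (Fintype.card F) := by rw [Nat.odd_iff]; omega
  have h2 : (2 : F) ≠ 0 := Cfsg.Agent.Lib.Helper41SL2.two_ne_zero_of_odd hodd
  have hne : (-1 : GL (Fin 2) F) ≠ 1 := by
    intro h
    have h3 := congrArg (fun B : GL (Fin 2) F => (B : Matrix (Fin 2) (Fin 2) F) 0 0) h
    simp at h3
    apply h2
    linear_combination -h3
  have hqd : Cfsg.IsQuasiDihedral ↥(P : Subgroup (GL (Fin 2) F)) := quasiDihedral_GL2 P hq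
  have hzz : (-1 : GL (Fin 2) F) * (-1) = 1 := by simp
  have hzc : ∀ g : GL (Fin 2) F, g * (-1) = (-1) * g := by intro g; simp
  have hzP : (-1 : GL (Fin 2) F) ∈ P := H88McGL2.central_mem_sylow P (-1) hzz hzc
  set z : ↥(P : Subgroup (GL (Fin 2) F)) := ⟨-1, hzP⟩ with hz
  have hz1 : z ≠ 1 := by
    intro h
    exact hne (congrArg Subtype.val h)
  have hzc' : ∀ g : ↥(P : Subgroup (GL (Fin 2) F)), g * z = z * g := by
    intro g
    exact Subtype.ext (hzc g)
  obtain ⟨c, hc⟩ := H88McSDTC.qd_exists hqd z hz1 hzc'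
  refine H88McSyl.bad_of_sylow P {g | g * g = -1} ⟨c, congrArg Subtype.val hc, c.2⟩ ?_ ?_ ?_
  · intro h
    have h' : (1 : GL (Fin 2) F) * 1 = -1 := h
    rw [one_mul] at h'
    exact hne h'.symm
  · intro a ha b hb
    exact H88McGL1.isConj_of_sq hq a b ha hb
  · have hset : {c : ↥(P : Subgroup (GL (Fin 2) F)) | (c : GL (Fin 2) F) ∈ {g | g * g = -1}} =
        {c | c * c = z} := by
      ext c
      simp only [Set.mem_setOf_eq]
      constructor
      · intro h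
        exact Subtype.ext h
      · intro h
        exact congrArg Subtype.val h
    rw [hset]
    exact H88McSDTC.qd_tc hqd z hz1 hzc'

end Cfsg.Agent.Lib.H88McGL
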