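import Cfsg.Agent.Lib.H88McDefs
import Cfsg.Agent.Lib.H88McEasy

set_option autoImplicit false

namespace Cfsg.Agent.Lib.H88McInner

open Cfsg Cfsg.Agent.Lib.H88McDefs Cfsg.Agent.Lib.H88McEasy

/-- `F` inner, `S` metacyclic with `N ⊴ ↥S` cyclic, `↥S ⧸ N` cyclic.  `m = 2`, `c = ![⊥, N.map S.subtype, S]`. -/
theorem ss_of_inner {Ω : Type*} [Group Ω] {S : Subgroup Ω} (F : FusionSystem S) (hm : Cfsg.IsMetacyclic ↥S)
    (hF : ∀ P : Subgroup Ω, F.Hom P = (Cfsg.innerFusionSystem S).Hom P) : SS F := by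
  obtain ⟨N, hN, hNc, hQc⟩ := hm
  obtain ⟨a, ha⟩ := hNc.exists_generator
  obtain ⟨b', hb'⟩ := hQc.exists_generator
  obtain ⟨b, rfl⟩ := QuotientGroup.mk_surjective b'
  have hNS : N.map S.subtype ≤ S := by
    rintro _ ⟨x, -, rfl⟩
    exact x.2
  have hsc : F.StronglyClosed (N.map S.subtype) := by
    refine ⟨hNS, ?_⟩
    intro R hR φ hφ x
    rw [hF] at hφ
    obtain ⟨-, g, hg, h⟩ := hφ
    rw [h x]
    obtain ⟨n, hn, hnx⟩ := hR x.2
    refine ⟨⟨g, hg⟩ * n * ⟨g, hg⟩⁻¹, hN.conj_mem n hn ⟨g, hg⟩, ?_⟩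
    rw [← hnx]
    rfl
  refine ⟨2, ![⊥, N.map S.subtype, S], rfl, rfl, ?_, ?_⟩
  · intro i
    fin_cases i
    · exact stronglyClosed_bot F
    · exact hsc
    · exact stronglyClosed_self F
  · intro i
    fin_cases i
    · refine ⟨bot_le, ((a : S) : Ω), (a : S).2, ?_⟩
      change N.map S.subtype = ⊥ ⊔ Subgroup.zpowers ((a : S) : Ω)
      rw [bot_sup_eq]
      apply le_antisymm
      · rintro _ ⟨n, hn, rfl⟩
        obtain ⟨k, hk⟩ := ha ⟨n, hn⟩
        refine ⟨k, ?_⟩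
        have := congrArg (fun z : N => ((z : S) : Ω)) hk
        simpa using this
      · rw [Subgroup.zpowers_le]
        exact ⟨a, a.2, rfl⟩
    · refine ⟨hNS, (b : Ω), b.2, ?_⟩
      change S = N.map S.subtype ⊔ Subgroup.zpowers (b : Ω)
      apply le_antisymm
      · intro s hs
        obtain ⟨k, hk⟩ := hb' (QuotientGroup.mk (⟨s, hs⟩ : S))
        beta_reduce at hk
        rw [← QuotientGroup.mk_zpow, QuotientGroup.eq] at hk
        -- (b^k)⁻¹ * s ∈ N
        have e : s = ((b : Ω) ^ k) * ((((b ^ k)⁻¹ * ⟨s, hs⟩ : S)) : Ω) := by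
          simp
        rw [e]
        apply Subgroup.mul_mem
        · exact Subgroup.mem_sup_right (Subgroup.zpow_mem _ (Subgroup.mem_zpowers _) k)
        · exact Subgroup.mem_sup_left ⟨_, hk, rfl⟩
      · apply sup_le hNS
        rw [Subgroup.zpowers_le]
        exact b.2

end Cfsg.Agent.Lib.H88McInner
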