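import Cfsg.Agent.Lib.H88McDefs
import Cfsg.Agent.Lib.Helper3MetaAut

set_option autoImplicit false

namespace Cfsg.Agent.Lib.H88McM1a

open Cfsg Cfsg.Agent.Lib.H88McDefs

open Cfsg.Agent.Lib.Helper3PGroup Cfsg.Agent.Lib.Helper98MetaC

theorem frattini_le_of_index {X : Type*} [Group X] [Finite X] {p : ℕ} [Fact p.Prime] (hX : IsPGroup p X)
    (M : Subgroup X) (hM : M.index = p) : frattini X ≤ M := by
  have hp : p.Prime := Fact.out
  have hco : IsCoatom M := by
    constructor
    · intro h
      rw [h, Subgroup.index_top] at hM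
      exact hp.one_lt.ne hM
    · intro K hK
      have h1 : K.index ∣ M.index := Subgroup.index_dvd_of_le hK.le
      rw [hM] at h1
      rcases (Nat.dvd_prime hp).mp h1 with h | h
      · exact Subgroup.index_eq_one.mp h
      · exfalso
        have h2 := Subgroup.relIndex_mul_index hK.le
        rw [h, hM] at h2
        have h3 : M.relIndex K = 1 := by
          have := Nat.eq_of_mul_eq_mul_right hp.pos (by rw [h2, one_mul] : M.relIndex K * p = 1 * p)
          exact this
        rw [Subgroup.relIndex_eq_one] at h3
        exact absurd h3 (not_le_of_gt hK)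
  intro x hx
  exact (mem_frattini_iff x).mp hx M hco

theorem relIndex_frattini_le {X : Type*} [Group X] [Finite X] {p : ℕ} [Fact p.Prime] (hX : IsPGroup p X)
    (hm : Cfsg.IsMetacyclic X) (M : Subgroup X) (hM : M.index = p) : (frattini X).relIndex M ≤ p := by
  have hp : p.Prime := Fact.out
  have h1 : (agemo X p).index ≤ p * p := index_agemo_le hm p hp.pos
  have h2 : agemo X p ≤ frattini X := by
    unfold agemo
    rw [Subgroup.closure_le]
    rintro _ ⟨y, rfl⟩
    exact pow_mem_frattini hX y
  have h3 : (frattini X).index ≤ p * p :=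
    (Nat.le_of_dvd (Nat.pos_of_ne_zero (Subgroup.index_ne_zero_of_finite)) (Subgroup.index_dvd_of_le h2)).trans h1
  have h4 := Subgroup.relIndex_mul_index (frattini_le_of_index hX M hM)
  rw [hM] at h4
  rw [← h4] at h3
  exact Nat.le_of_mul_le_mul_right h3 hp.pos

end Cfsg.Agent.Lib.H88McM1a
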