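import Cfsg.Agent.Lib.H88McDefs
import Cfsg.Agent.Lib.Helper3MetaAut

set_option autoImplicit false

namespace Cfsg.Agent.Lib.H88McM1b

open Cfsg Cfsg.Agent.Lib.H88McDefs

open Cfsg.Agent.Lib.Helper3PGroup Cfsg.Agent.Lib.Helper3MetaAut

/-- `γ` of order prime to `p` stabilising the chain `Φ = frattini X ≤ M ≤ X` acts trivially mod `Φ`.
Write `Φ = frattini X` (normal, characteristic: `γ Φ ⊆ Φ`; contains commutators and `p`-th powers: `commutator_le_frattini`, `pow_mem_frattini`).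
Work in the abelian group `X ⧸ Φ` of exponent `p`, or by hand:  for `y : X` put `m = y⁻¹ * γ y ∈ M`.  Induction on `j`: `y⁻¹ * (γ^j) y ≡ m^j mod Φ`
(i.e. `(m^j)⁻¹ * (y⁻¹ * (γ^j) y) ∈ Φ`): `(γ^(j+1)) y = (γ^j) (y * m) = (γ^j) y * (γ^j) m` and `(γ^j) m ≡ m mod Φ` (`Helper3MetaAut.pow_trivial_mod`-style induction restricted to `M`; note `γ M ⊆ M` because `γ y = y * (y⁻¹ γ y)`).
So `y⁻¹ * (γ^p) y ≡ m^p ≡ 1`: `γ^p` is trivial mod `Φ`; by `pow_trivial_mod Φ (γ^p)` so is every power of `γ^p`; `γ = (γ^p)^t` where `p * t ≡ 1 mod orderOf γ` (`Nat.exists_mul_emod_eq_one_of_coprime` / `Nat.Coprime` + `pow_eq_pow_mod`/`exists_pow_eq_self_of_coprime`: Mathlib `exists_pow_eq_self_of_coprime : n.Coprime (orderOf x) → ∃ m, (x ^ n) ^ m = x`). -/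
theorem trivial_mod_frattini {X : Type*} [Group X] [Finite X] {p : ℕ} [Fact p.Prime] (hX : IsPGroup p X)
    (M : Subgroup X) (γ : MulAut X) (hγ : (orderOf γ).Coprime p) (h1 : ∀ y : X, y⁻¹ * γ y ∈ M)
    (h2 : ∀ y ∈ M, y⁻¹ * γ y ∈ frattini X) : ∀ y : X, y⁻¹ * γ y ∈ frattini X := by
  have hpp := (Fact.out : p.Prime)
  let π := QuotientGroup.mk' (frattini X)
  have hπ : ∀ a b : X, π a = π b ↔ a⁻¹ * b ∈ frattini X := fun a b => QuotientGroup.eq
  have hM : ∀ m ∈ M, π (γ m) = π m := fun m hm => ((hπ _ _).2 (h2 m hm)).symm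
  have claim : ∀ (j : ℕ) (y : X), π ((γ ^ j) y) = π y * π (y⁻¹ * γ y) ^ j := by
    intro j
    induction j with
    | zero => intro y; simp
    | succ j ih =>
      intro y
      have e1 : (γ ^ (j + 1)) y = (γ ^ j) (γ y) := by rw [pow_succ]; rfl
      have e2 : (γ y)⁻¹ * γ (γ y) = γ (y⁻¹ * γ y) := by rw [map_mul, map_inv]
      rw [e1, ih (γ y), e2, hM _ (h1 y), pow_succ', ← mul_assoc, ← map_mul, mul_inv_cancel_left]
  have hp1 : ∀ y : X, π ((γ ^ p) y) = π y := by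
    intro y
    rw [claim p y, ← map_pow]
    have : π ((y⁻¹ * γ y) ^ p) = 1 :=
      (QuotientGroup.eq_one_iff _).2 (pow_mem_frattini hX _)
    rw [this, mul_one]
  have hp2 : ∀ (t : ℕ) (y : X), π (((γ ^ p) ^ t) y) = π y := by
    intro t
    induction t with
    | zero => intro y; simp
    | succ t ih =>
      intro y
      have e1 : ((γ ^ p) ^ (t + 1)) y = ((γ ^ p) ^ t) ((γ ^ p) y) := by rw [pow_succ]; rfl
      rw [e1, ih, hp1]
  obtain ⟨t, ht⟩ := exists_pow_eq_self_of_coprime (x := γ) (n := p) hγ.symm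
  intro y
  rw [← hπ]
  have := hp2 t y
  rw [ht] at this
  exact this.symm

end Cfsg.Agent.Lib.H88McM1b
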