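import Cfsg.Agent.Lib.H88McDefs
import Cfsg.Agent.Lib.H88McM1a
import Cfsg.Agent.Lib.H88McM1b
import Cfsg.Agent.Lib.H57SsAbExpRel
import Cfsg.Agent.Lib.H57SsDefs

set_option autoImplicit false

namespace Cfsg.Agent.Lib.H88McM1

open Cfsg Cfsg.Agent.Lib.H88McDefs

open Cfsg.Agent.Lib.Helper3PGroup Cfsg.Agent.Lib.Helper3MetaAut Cfsg.Agent.Lib.H57SsDefs

/-- (M1) a characteristic subgroup `M` of index `p` in a metacyclic `p`-group forces the condition on `p'`-automorphism groups. -/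
theorem pcond_of_hasChar {X : Type*} [Group X] [Finite X] {p : ℕ} [Fact p.Prime] (hX : IsPGroup p X)
    (hm : Cfsg.IsMetacyclic X) (h : HasChar p X) : PCond p X := by
  obtain ⟨M, hM, hMinv⟩ := h
  intro H hH
  have hfr : ∀ α : MulAut X, ∀ x ∈ frattini X, α x ∈ frattini X := by
    intro α x hx
    have hc : (frattini X).Characteristic := frattini_characteristic
    have := Subgroup.characteristic_iff_le_comap.mp hc α
    exact this hx
  have k1 := Cfsg.Agent.Lib.H57SsAbExpRel.key hX H M ⊤ le_top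
    (by rw [Subgroup.relIndex_top_right, hM]) (fun α _ x hx => hMinv α x hx)
    (fun _ _ _ _ => Subgroup.mem_top _)
  have k2 := Cfsg.Agent.Lib.H57SsAbExpRel.key hX H (frattini X) M
    (Cfsg.Agent.Lib.H88McM1a.frattini_le_of_index hX M hM)
    (Cfsg.Agent.Lib.H88McM1a.relIndex_frattini_le hX hm M hM)
    (fun α _ x hx => hfr α x hx) (fun α _ x hx => hMinv α x hx)
  have main : ∀ γ ∈ H, (∀ y : X, y⁻¹ * γ y ∈ M) → (∀ y ∈ M, y⁻¹ * γ y ∈ frattini X) → γ = 1 := by
    intro γ hγ h1 h2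
    have hco := Cfsg.Agent.Lib.H57SsStabRel.orderOf_coprime H hH hγ
    exact eq_one_of_trivial_mod_frattini hX γ hco
      (Cfsg.Agent.Lib.H88McM1b.trivial_mod_frattini hX M γ hco h1 h2)
  constructor
  · refine ⟨⟨fun a b => Subtype.ext ?_⟩⟩
    have hγ : ((b : MulAut X) * a)⁻¹ * ((a : MulAut X) * b) ∈ H :=
      H.mul_mem (H.inv_mem (H.mul_mem b.2 a.2)) (H.mul_mem a.2 b.2)
    have := main _ hγ (fun y => k1.1 a a.2 b b.2 y (Subgroup.mem_top _))
      (fun y hy => k2.1 a a.2 b b.2 y hy)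
    rw [inv_mul_eq_one] at this
    exact this.symm
  · intro α hα
    exact main _ (H.pow_mem hα _) (fun y => k1.2 α hα y (Subgroup.mem_top _))
      (fun y hy => k2.2 α hα y hy)

end Cfsg.Agent.Lib.H88McM1
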