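import Cfsg.Agent.Lib.H88McDefs
import Cfsg.Agent.Lib.Helper3MetaAut

set_option autoImplicit false

namespace Cfsg.Agent.Lib.H88McM2

open Cfsg Cfsg.Agent.Lib.H88McDefs

open Cfsg.Agent.Lib.Helper3PGroup Cfsg.Agent.Lib.Helper3MetaAut Cfsg.Agent.Lib.Helper98MetaB Subgroup

/-- an element of order dividing `p` in `zpowers a`, `orderOf a = p^(n+1)`, lies in `zpowers (a^(p^n))`. -/
theorem mem_zpowers_pow {X : Type*} [Group X] {p : ℕ} [hp : Fact p.Prime] (a w : X) (n : ℕ)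
    (ha : orderOf a = p ^ (n + 1)) (hw : w ∈ zpowers a) (hwp : w ^ p = 1) : w ∈ zpowers (a ^ p ^ n) := by
  obtain ⟨i, rfl⟩ := Subgroup.mem_zpowers_iff.mp hw
  have h1 : a ^ (i * (p : ℤ)) = 1 := by rw [zpow_mul, zpow_natCast]; exact hwp
  have h2 := orderOf_dvd_iff_zpow_eq_one.mpr h1
  rw [ha] at h2
  have hp0 : (p : ℤ) ≠ 0 := by exact_mod_cast hp.out.ne_zero
  have h3 : ((p ^ n : ℕ) : ℤ) ∣ i := by
    have : ((p ^ n : ℕ) : ℤ) * (p : ℤ) ∣ i * (p : ℤ) := by
      have e : ((p ^ (n + 1) : ℕ) : ℤ) = ((p ^ n : ℕ) : ℤ) * (p : ℤ) := by push_cast; ring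
      rwa [e] at h2
    exact (mul_dvd_mul_iff_right hp0).mp this
  obtain ⟨l, rfl⟩ := h3
  rw [zpow_mul, zpow_natCast]
  exact zpow_mem (mem_zpowers _) l

theorem hasChar_or_homo {X : Type*} [Group X] [Finite X] [Nontrivial X] {p : ℕ} [Fact p.Prime] (hX : IsPGroup p X)
    (hm : Cfsg.IsMetacyclic X) (hc : ∀ a b : X, a * b = b * a) : HasChar p X ∨ Homo p X := by
  have hp : p.Prime := Fact.out
  obtain ⟨a, b, -, hgen⟩ := exists_gens hm
  obtain ⟨s, hs⟩ := IsPGroup.iff_orderOf.mp hX a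
  obtain ⟨t, ht⟩ := IsPGroup.iff_orderOf.mp hX b
  obtain ⟨n, hn⟩ : ∃ n, n = max s t := ⟨_, rfl⟩
  have hsn : s ≤ n := hn ▸ le_max_left s t
  have htn : t ≤ n := hn ▸ le_max_right s t
  have h0 : 0 < n := by
    rcases Nat.eq_zero_or_pos n with h0 | h0
    · exfalso
      have hs0 : s = 0 := by omega
      have ht0 : t = 0 := by omega
      rw [hs0, pow_zero, orderOf_eq_one_iff] at hs
      rw [ht0, pow_zero, orderOf_eq_one_iff] at ht
      obtain ⟨x, hx⟩ := exists_ne (1 : X)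
      obtain ⟨j, i, rfl⟩ := hgen x
      rw [hs, ht] at hx
      simp at hx
    · exact h0
  obtain ⟨n', rfl⟩ : ∃ n', n = n' + 1 := ⟨n - 1, by omega⟩
  have han : a ^ p ^ (n' + 1) = 1 := by
    apply orderOf_dvd_iff_pow_eq_one.mp
    rw [hs]; exact pow_dvd_pow p hsn
  have hbn : b ^ p ^ (n' + 1) = 1 := by
    apply orderOf_dvd_iff_pow_eq_one.mp
    rw [ht]; exact pow_dvd_pow p htn
  let π : X →* X :=
    { toFun := fun x => x ^ p ^ n'
      map_one' := one_pow _
      map_mul' := fun x y => (show Commute x y from hc x y).mul_pow _ }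
  have hπ : ∀ x, π x = x ^ p ^ n' := fun x => rfl
  have hπa2 : (π a) ^ p = 1 := by rw [hπ, ← pow_mul, ← pow_succ]; exact han
  have hπb2 : (π b) ^ p = 1 := by rw [hπ, ← pow_mul, ← pow_succ]; exact hbn
  have hnontriv : ∃ y, π y ≠ 1 := by
    rcases le_total s t with h | h
    · have : t = n' + 1 := by rw [hn]; exact (max_eq_right h).symm
      refine ⟨b, ?_⟩
      rw [hπ]
      apply pow_ne_one_of_lt_orderOf (by have := hp.pos; positivity)
      rw [ht, this]; exact Nat.pow_lt_pow_right hp.one_lt (by omega)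
    · have : s = n' + 1 := by rw [hn]; exact (max_eq_left h).symm
      refine ⟨a, ?_⟩
      rw [hπ]
      apply pow_ne_one_of_lt_orderOf (by have := hp.pos; positivity)
      rw [hs, this]; exact Nat.pow_lt_pow_right hp.one_lt (by omega)
  have claim : (∃ c : X, c ^ p = 1 ∧ ∀ x, π x ∈ zpowers c) → HasChar p X := by
    rintro ⟨c, hcp, hcx⟩
    refine ⟨π.ker, ?_, ?_⟩
    · rw [Subgroup.index_ker]
      have hle : π.range ≤ zpowers c := by
        rintro _ ⟨x, rfl⟩
        exact hcx x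
      have h1 : Nat.card π.range ∣ p :=
        (Subgroup.card_dvd_of_le hle).trans (by rw [Nat.card_zpowers]; exact orderOf_dvd_of_pow_eq_one hcp)
      rcases (Nat.dvd_prime hp).mp h1 with h | h
      · exfalso
        obtain ⟨y, hy⟩ := hnontriv
        rw [Subgroup.card_eq_one] at h
        apply hy
        have : π y ∈ π.range := ⟨y, rfl⟩
        rwa [h, mem_bot] at this
      · exact h
    · intro α x hx
      rw [MonoidHom.mem_ker] at hx ⊢
      rw [hπ, ← map_pow, ← hπ, hx, map_one]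
  by_cases hA : π b ∈ zpowers (π a)
  · left
    apply claim
    refine ⟨π a, hπa2, fun x => ?_⟩
    obtain ⟨j, i, rfl⟩ := hgen x
    rw [map_mul, map_pow, map_pow]
    exact mul_mem (pow_mem (mem_zpowers _) j) (pow_mem hA i)
  by_cases hB : π a ∈ zpowers (π b)
  · left
    apply claim
    refine ⟨π b, hπb2, fun x => ?_⟩
    obtain ⟨j, i, rfl⟩ := hgen x
    rw [map_mul, map_pow, map_pow]
    exact mul_mem (pow_mem hB j) (pow_mem (mem_zpowers _) i)
  right
  have hπa : π a ≠ 1 := fun h => hB (h ▸ one_mem _)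
  have hπb : π b ≠ 1 := fun h => hA (h ▸ one_mem _)
  have hoa : orderOf a = p ^ (n' + 1) := orderOf_eq_prime_pow hπa han
  have hob : orderOf b = p ^ (n' + 1) := orderOf_eq_prime_pow hπb hbn
  refine ⟨n' + 1, Nat.succ_pos _, ?_⟩
  apply equiv_of_gens hc a b _ hoa hob _ hgen
  rw [eq_bot_iff]
  intro y hy
  rw [mem_bot]
  by_contra hy1
  obtain ⟨k, hk1, hk2⟩ := exists_pow_order_p hX hy1
  have e1 : y ^ k ∈ zpowers (π a) := mem_zpowers_pow a (y ^ k) n' hoa (pow_mem hy.1 k) hk2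
  have e2 : y ^ k ∈ zpowers (π b) := mem_zpowers_pow b (y ^ k) n' hob (pow_mem hy.2 k) hk2
  have hle : zpowers (y ^ k) ≤ zpowers (π a) := by rwa [zpowers_le]
  have heq : zpowers (y ^ k) = zpowers (π a) := by
    apply Subgroup.eq_of_le_of_card_ge hle
    rw [Nat.card_zpowers, Nat.card_zpowers, orderOf_eq_prime hk2 hk1, orderOf_eq_prime hπa2 hπa]
  apply hB
  have : π a ∈ zpowers (y ^ k) := heq ▸ mem_zpowers _
  exact (zpowers_le.mpr e2) this

end Cfsg.Agent.Lib.H88McM2
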