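import Cfsg.Agent.Lib.H88McDefs
import Cfsg.Agent.Lib.Helper3MetaAut

set_option autoImplicit false

namespace Cfsg.Agent.Lib.H88McM3a

open Cfsg Cfsg.Agent.Lib.H88McDefs

open Cfsg.Agent.Lib.Helper3PGroup Cfsg.Agent.Lib.Helper3MetaAut Cfsg.Agent.Lib.Helper3AutOdd

/-- pull back along the quotient by a characteristic subgroup.  MODEL: `Helper3MetaAut.noInv_quot`.
`M' = M.comap (QuotientGroup.mk' K)`, `Subgroup.index_comap_of_surjective`; for `α : MulAut X`, `quotChar K α : MulAut (X ⧸ K)` sends `mk x` to `mk (α x)`. -/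
theorem hasChar_of_quot {X : Type*} [Group X] {p : ℕ} (K : Subgroup X) [K.Normal] [K.Characteristic]
    (h : HasChar p (X ⧸ K)) : HasChar p X := by
  obtain ⟨M, hM, hinv⟩ := h
  refine ⟨M.comap (QuotientGroup.mk' K), ?_, ?_⟩
  · rw [Subgroup.index_comap_of_surjective _ (QuotientGroup.mk'_surjective K)]; exact hM
  · intro α x hx
    exact hinv (quotChar K α) _ hx

end Cfsg.Agent.Lib.H88McM3a
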