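import Cfsg.Agent.Lib.H88McDefs
import Cfsg.Agent.Lib.Helper3MetaAut
import Cfsg.Agent.Lib.Helper3Class2

set_option autoImplicit false

namespace Cfsg.Agent.Lib.H88McM3b

open Cfsg Cfsg.Agent.Lib.H88McDefs

open Cfsg.Agent.Lib.Helper3PGroup Cfsg.Agent.Lib.Helper3MetaAut Cfsg.Agent.Lib.Helper3Class2
open scoped commutatorElement

/-- a normal subgroup of order `p` of a finite `p`-group is central (`Helper3PGroup.normal_inf_center_ne_bot hX N`: a nontrivial central element `b ∈ N`; `N` of prime order is generated by `b`: `zpowers b = N` by cardinality). -/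
theorem le_center_of_card {X : Type*} [Group X] [Finite X] {p : ℕ} [Fact p.Prime] (hX : IsPGroup p X)
    (N : Subgroup X) [N.Normal] (hN : Nat.card N = p) : N ≤ Subgroup.center X := by
  have hp : p.Prime := Fact.out
  have hne : N ≠ ⊥ := by
    intro h
    rw [h, Subgroup.card_bot] at hN
    exact hp.one_lt.ne hN
  obtain ⟨b, hbN, hbc, hb1⟩ := normal_inf_center_ne_bot hX N hne
  have hle : Subgroup.zpowers b ≤ N := by
    rw [Subgroup.zpowers_le]; exact hbN
  have hdvd : orderOf b ∣ p := by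
    rw [← hN, ← Nat.card_zpowers]
    exact Subgroup.card_dvd_of_le hle
  have ho : orderOf b = p := by
    rcases (Nat.dvd_prime hp).1 hdvd with h | h
    · exact absurd (orderOf_eq_one_iff.1 h) hb1
    · exact h
  have heq : Subgroup.zpowers b = N := by
    apply Subgroup.eq_of_le_of_card_ge hle
    rw [Nat.card_zpowers, ho, hN]
  rw [← heq, Subgroup.zpowers_le]
  exact hbc

/-- `p` odd, `|X'| = p`, `n ≥ 1`: `x ↦ x^(p^n)` is multiplicative.
`Helper3Class2.mul_pow_class2 x y hx hy (p^n) : (x*y)^(p^n) = x^(p^n) * y^(p^n) * ⁅y,x⁆^((p^n).choose 2)`; `⁅y,x⁆ ∈ commutator X` is central (`le_center_of_card`) with `⁅y,x⁆^p = 1` (`pow_card_eq_one'` in the subgroup of order `p`);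
`p ∣ (p^n).choose 2 = p^n * (p^n - 1) / 2` for `p` odd (`Nat.choose_two_right`; `p^n - 1` is even; or `Nat.Prime.dvd_choose_pow`: `p ∣ (p^n).choose k` for `k ≠ 0`, `k ≠ p^n`). -/
theorem mul_pow_of_card_commutator {X : Type*} [Group X] [Finite X] {p : ℕ} [Fact p.Prime] (hp : p ≠ 2)
    (hX : IsPGroup p X) (hc : Nat.card (commutator X) = p) (n : ℕ) (hn : 0 < n) (x y : X) :
    (x * y) ^ (p ^ n) = x ^ (p ^ n) * y ^ (p ^ n) := by
  have hpp : p.Prime := Fact.out
  have hmem : ⁅y, x⁆ ∈ commutator X := by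
    rw [commutator_def]
    exact Subgroup.commutator_mem_commutator (Subgroup.mem_top y) (Subgroup.mem_top x)
  have hcen : ⁅y, x⁆ ∈ Subgroup.center X := le_center_of_card hX (commutator X) hc hmem
  have hcomm : ∀ g : X, Commute ⁅y, x⁆ g := fun g => (Subgroup.mem_center_iff.1 hcen g).symm
  have hpow : ⁅y, x⁆ ^ p = 1 := by
    have := pow_card_eq_one' (G := commutator X) (x := ⟨⁅y, x⁆, hmem⟩)
    rw [hc] at this
    exact congrArg Subtype.val this
  have hdvd : p ∣ (p ^ n).choose 2 := by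
    apply hpp.dvd_choose_pow (by norm_num)
    intro h
    have h2 : p ∣ 2 := by
      rw [h]; exact dvd_pow_self p hn.ne'
    exact hp ((Nat.prime_dvd_prime_iff_eq hpp Nat.prime_two).1 h2)
  obtain ⟨k, hk⟩ := hdvd
  rw [mul_pow_class2 x y (hcomm x) (hcomm y), hk, pow_mul, hpow, one_pow, mul_one]

end Cfsg.Agent.Lib.H88McM3b
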