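import Cfsg.Agent.Lib.H88McDefs
import Cfsg.Agent.Lib.H88McM3b

set_option autoImplicit false

namespace Cfsg.Agent.Lib.H88McM3c1

open Cfsg Cfsg.Agent.Lib.H88McDefs

open Cfsg.Agent.Lib.Helper3PGroup Cfsg.Agent.Lib.Helper3MetaAut Cfsg.Agent.Lib.Helper3Class2

/-- exponent of the homocyclic quotient -/
theorem pow_mem_commutator {X : Type*} [Group X] {p : ℕ} (n : ℕ)
    (e : (X ⧸ commutator X) ≃* Multiplicative (ZMod (p ^ n)) × Multiplicative (ZMod (p ^ n))) (x : X) :
    x ^ (p ^ n) ∈ commutator X := by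
  rw [← QuotientGroup.eq_one_iff, QuotientGroup.mk_pow]
  apply e.injective
  rw [map_pow, map_one]
  have key : ∀ u : Multiplicative (ZMod (p ^ n)), u ^ (p ^ n) = 1 := by
    intro u
    apply Multiplicative.toAdd.injective
    rw [toAdd_pow, toAdd_one, nsmul_eq_mul, ZMod.natCast_self, zero_mul]
  ext
  · simp [key]
  · simp [key]

theorem exists_pow_ne_one {X : Type*} [Group X] [Finite X] {p : ℕ} [Fact p.Prime]
    (hm : Cfsg.IsMetacyclic X) (hc : Nat.card (commutator X) = p) (n : ℕ) (hn : 0 < n)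
    (e : (X ⧸ commutator X) ≃* Multiplicative (ZMod (p ^ n)) × Multiplicative (ZMod (p ^ n))) :
    ∃ c : X, c ^ (p ^ n) ≠ 1 := by
  have hp : p.Prime := Fact.out
  by_contra hcon
  push Not at hcon
  obtain ⟨N, hN, hNc, hq⟩ := hm
  have hpos : 0 < p ^ n := pow_pos hp.pos n
  have h1 : Nat.card (X ⧸ N) ≤ p ^ n := by
    apply card_le_of_cyclic_exp (p ^ n) hpos
    intro x
    obtain ⟨x, rfl⟩ := QuotientGroup.mk_surjective x
    rw [← QuotientGroup.mk_pow, hcon, QuotientGroup.mk_one]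
  have h2 : Nat.card N ≤ p ^ n := by
    apply card_le_of_cyclic_exp (p ^ n) hpos
    intro x
    exact Subtype.ext (hcon x)
  have h3 : Nat.card X = Nat.card (X ⧸ N) * Nat.card N := Subgroup.card_eq_card_quotient_mul_card_subgroup N
  have h4 : Nat.card X = Nat.card (X ⧸ commutator X) * Nat.card (commutator X) :=
    Subgroup.card_eq_card_quotient_mul_card_subgroup _
  have h5 : Nat.card (X ⧸ commutator X) = p ^ n * p ^ n := by
    rw [Nat.card_congr e.toEquiv, Nat.card_prod]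
    have : Nat.card (Multiplicative (ZMod (p ^ n))) = p ^ n := by
      show Nat.card (ZMod (p ^ n)) = p ^ n
      rw [Nat.card_zmod]
    rw [this]
  rw [h5, hc] at h4
  have h6 : Nat.card X ≤ p ^ n * p ^ n := by rw [h3]; exact Nat.mul_le_mul h1 h2
  rw [h4] at h6
  have h7 : p ^ n * p ^ n * 1 < p ^ n * p ^ n * p :=
    Nat.mul_lt_mul_of_pos_left hp.one_lt (Nat.mul_pos hpos hpos)
  omega

end Cfsg.Agent.Lib.H88McM3c1
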