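import Cfsg.Agent.Lib.H88McDefs
import Cfsg.Agent.Lib.H88McM3b
import Cfsg.Agent.Lib.H88McM3c1

set_option autoImplicit false

namespace Cfsg.Agent.Lib.H88McM3c

open Cfsg Cfsg.Agent.Lib.H88McDefs

open Cfsg.Agent.Lib.Helper3PGroup Cfsg.Agent.Lib.Helper3MetaAut Cfsg.Agent.Lib.Helper3Class2

/-- `p` odd, `|X'| = p`, `X ⧸ X'` homocyclic: `HasChar p X`. -/
theorem hasChar_of_homo_quot {X : Type*} [Group X] [Finite X] {p : ℕ} [Fact p.Prime] (hp : p ≠ 2) (hX : IsPGroup p X)
    (hm : Cfsg.IsMetacyclic X) (hc : Nat.card (commutator X) = p) (h : Homo p (X ⧸ commutator X)) : HasChar p X := by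
  have hpp : p.Prime := Fact.out
  obtain ⟨n, hn, ⟨e⟩⟩ := h
  let π : X →* commutator X :=
    { toFun := fun x => ⟨x ^ (p ^ n), H88McM3c1.pow_mem_commutator n e x⟩
      map_one' := Subtype.ext (one_pow _)
      map_mul' := fun x y => Subtype.ext (H88McM3b.mul_pow_of_card_commutator hp hX hc n hn x y) }
  have hπ : ∀ x, ((π x : commutator X) : X) = x ^ (p ^ n) := fun x => rfl
  obtain ⟨c, hcne⟩ := H88McM3c1.exists_pow_ne_one hm hc n hn e
  refine ⟨π.ker, ?_, ?_⟩
  · rw [Subgroup.index_ker]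
    have h1 : Nat.card π.range ∣ p := hc ▸ Subgroup.card_subgroup_dvd_card π.range
    rcases (Nat.dvd_prime hpp).mp h1 with h | h
    · exfalso
      rw [Subgroup.card_eq_one] at h
      apply hcne
      have : π c ∈ π.range := ⟨c, rfl⟩
      rw [h, Subgroup.mem_bot] at this
      rw [← hπ, this]
      rfl
    · exact h
  · intro α x hx
    rw [MonoidHom.mem_ker] at hx ⊢
    apply Subtype.ext
    rw [hπ, ← map_pow, ← hπ, hx]
    simp

end Cfsg.Agent.Lib.H88McM3c
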