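import Cfsg.Agent.Lib.H88McDefs
import Cfsg.Agent.Lib.H88McM3c
import Cfsg.Agent.Lib.H88McM3a
import Cfsg.Agent.Lib.H88McM2

set_option autoImplicit false

namespace Cfsg.Agent.Lib.H88McM3d

open Cfsg Cfsg.Agent.Lib.H88McDefs

open Cfsg.Agent.Lib.Helper3PGroup Cfsg.Agent.Lib.Helper3MetaAut Cfsg.Agent.Lib.Helper3Class2

/-- `|X'| = p`, `p` odd, `X` metacyclic `p`-group ⟹ `HasChar p X`.
`Y = X ⧸ commutator X` is abelian, metacyclic (`Helper98MetaB.isMetacyclic_quotient hm _`), a `p`-group (`hX.to_quotient`), nontrivial (otherwise `commutator X = ⊤`, impossible for a nontrivial nilpotent group: e.g. `commutator_le_frattini hX` and `frattini X ≠ ⊤`; or `|X| = p` would make `X` cyclic, abelian, `X' = ⊥`).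
`H88McM2.hasChar_or_homo` on `Y`: `HasChar p Y` pulls back by `hasChar_of_quot (commutator X)` (instance `Subgroup.commutator_characteristic`); `Homo p Y` ⟹ `hasChar_of_homo_quot`. -/
theorem hasChar_of_card_commutator {X : Type*} [Group X] [Finite X] {p : ℕ} [Fact p.Prime] (hp : p ≠ 2) (hX : IsPGroup p X)
    (hm : Cfsg.IsMetacyclic X) (hc : Nat.card (commutator X) = p) : HasChar p X := by
  have hpp : p.Prime := Fact.out
  have hnil : Group.IsNilpotent X := hX.isNilpotent
  have hsolv : Group.IsSolvable X := inferInstance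
  have hntX : Nontrivial X := by
    by_contra hcon
    rw [not_nontrivial_iff_subsingleton] at hcon
    have : Nat.card (commutator X) = 1 := Nat.card_eq_one_iff_unique.mpr ⟨inferInstance, ⟨1⟩⟩
    rw [hc] at this
    exact hpp.one_lt.ne' this
  have hne : commutator X ≠ ⊤ := by
    intro h
    exact (IsSolvable.commutator_lt_top_of_nontrivial X).ne h
  have hnt : Nontrivial (X ⧸ commutator X) := by
    rw [← Finite.one_lt_card_iff_nontrivial]
    have h1 : Nat.card (X ⧸ commutator X) = (commutator X).index := rfl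
    rw [h1]
    have h2 : (commutator X).index ≠ 1 := fun h => hne (Subgroup.index_eq_one.mp h)
    have h3 : (commutator X).index ≠ 0 := Subgroup.index_ne_zero_of_finite
    omega
  have hcomm : ∀ a b : X ⧸ commutator X, a * b = b * a := by
    intro a b
    exact mul_comm (G := Abelianization X) a b
  rcases H88McM2.hasChar_or_homo (hX.to_quotient (commutator X))
    (Cfsg.Agent.Lib.Helper98MetaB.isMetacyclic_quotient hm _) hcomm with h | h
  · exact H88McM3a.hasChar_of_quot (commutator X) h
  · exact H88McM3c.hasChar_of_homo_quot hp hX hm hc h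

end Cfsg.Agent.Lib.H88McM3d
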