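import Cfsg.Agent.Lib.H88McDefs
import Cfsg.Agent.Lib.Helper3MetaAut

set_option autoImplicit false

namespace Cfsg.Agent.Lib.H88McM3e

open Cfsg Cfsg.Agent.Lib.H88McDefs

open Cfsg.Agent.Lib.Helper3PGroup Cfsg.Agent.Lib.Helper3MetaAut Cfsg.Agent.Lib.Helper98MetaB Subgroup
open scoped commutatorElement

/-- `X` nonabelian metacyclic `p`-group: a characteristic `K` with `|(X ⧸ K)'| = p`. -/
theorem exists_char_quot {X : Type*} [Group X] [Finite X] {p : ℕ} [Fact p.Prime] (hX : IsPGroup p X)
    (hm : Cfsg.IsMetacyclic X) (hna : ¬ ∀ a b : X, a * b = b * a) :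
    ∃ (K : Subgroup X) (_ : K.Normal) (_ : K.Characteristic), Nat.card (commutator (X ⧸ K)) = p := by
  have hp : p.Prime := Fact.out
  obtain ⟨⟨c, hcX⟩, hc⟩ := (isCyclic_commutator hm).exists_generator
  have hXc : commutator X = zpowers c := by
    apply le_antisymm
    · intro y hy
      obtain ⟨k, hk⟩ := mem_zpowers_iff.mp (hc ⟨y, hy⟩)
      exact mem_zpowers_iff.mpr ⟨k, by simpa using congrArg Subtype.val hk⟩
    · exact zpowers_le.mpr hcX
  have hc1 : c ≠ 1 := by
    rintro rfl
    rw [zpowers_one_eq_bot] at hXc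
    apply hna
    intro a b
    have h1 : ⁅a, b⁆ ∈ commutator X := commutator_mem_commutator (mem_top a) (mem_top b)
    rw [hXc, mem_bot] at h1
    exact commutatorElement_eq_one_iff_mul_comm.mp h1
  have hLc : (zpowers (c ^ p)).Characteristic := by
    rw [characteristic_iff_map_le]
    intro φ
    rw [MonoidHom.map_zpowers, zpowers_le]
    have h1 : φ c ∈ commutator X := by
      have h2 : (commutator X).map φ.toMonoidHom = commutator X :=
        characteristic_iff_map_eq.mp inferInstance φ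
      rw [← h2]
      exact ⟨c, hcX, rfl⟩
    rw [hXc] at h1
    obtain ⟨k, hk⟩ := mem_zpowers_iff.mp h1
    refine mem_zpowers_iff.mpr ⟨k, ?_⟩
    show (c ^ p) ^ k = φ (c ^ p)
    rw [map_pow, ← hk, ← zpow_natCast, ← zpow_natCast, ← zpow_mul, ← zpow_mul, mul_comm]
  have hLn : (zpowers (c ^ p)).Normal := inferInstance
  have hcL : c ∉ zpowers (c ^ p) := by
    intro h
    obtain ⟨k, hk⟩ := mem_zpowers_iff.mp h
    have h1 : c ^ ((p : ℤ) * k - 1) = 1 := by
      rw [zpow_sub, zpow_one, zpow_mul, zpow_natCast, hk, mul_inv_cancel]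
    have h2 := orderOf_dvd_iff_zpow_eq_one.mpr h1
    obtain ⟨e, he⟩ := IsPGroup.iff_orderOf.mp hX c
    have he0 : e ≠ 0 := by
      rintro rfl
      rw [pow_zero, orderOf_eq_one_iff] at he; exact hc1 he
    have h3 : (p : ℤ) ∣ (p : ℤ) * k - 1 := by
      refine dvd_trans ?_ h2
      rw [he]
      push_cast
      exact dvd_pow_self (p : ℤ) he0
    have h4 : (p : ℤ) ∣ 1 := by
      have := dvd_sub (dvd_mul_right (p : ℤ) k) h3
      simpa using this
    have h5 : p ∣ 1 := by exact_mod_cast h4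
    exact hp.one_lt.ne' (Nat.dvd_one.mp h5)
  refine ⟨zpowers (c ^ p), hLn, hLc, ?_⟩
  have hYc : commutator (X ⧸ zpowers (c ^ p)) =
      zpowers (QuotientGroup.mk c : X ⧸ zpowers (c ^ p)) := by
    have h1 : (commutator X).map (QuotientGroup.mk' (zpowers (c ^ p))) =
        commutator (X ⧸ zpowers (c ^ p)) := by
      rw [_root_.commutator_def, map_commutator, _root_.commutator_def,
        map_top_of_surjective _ (QuotientGroup.mk'_surjective _)]
    rw [← h1, hXc, MonoidHom.map_zpowers]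
    rfl
  rw [hYc, Nat.card_zpowers]
  apply orderOf_eq_prime
  · rw [← QuotientGroup.mk_pow]
    exact (QuotientGroup.eq_one_iff _).mpr (mem_zpowers _)
  · intro h
    exact hcL ((QuotientGroup.eq_one_iff _).mp h)

end Cfsg.Agent.Lib.H88McM3e
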