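import Cfsg.Agent.Lib.H88McDefs
import Cfsg.Agent.Lib.H88McM3d
import Cfsg.Agent.Lib.H88McM3e
import Cfsg.Agent.Lib.H88McM1

set_option autoImplicit false

namespace Cfsg.Agent.Lib.H88McM

open Cfsg Cfsg.Agent.Lib.H88McDefs

open Cfsg.Agent.Lib.Helper3PGroup Cfsg.Agent.Lib.Helper3MetaAut Cfsg.Agent.Lib.H57SsDefs

/-- LEMMA M. -/
theorem hasChar_of_not_homo {X : Type*} [Group X] [Finite X] [Nontrivial X] {p : ℕ} [Fact p.Prime] (hp : p ≠ 2)
    (hX : IsPGroup p X) (hm : Cfsg.IsMetacyclic X) (hh : ¬ Homo p X) : HasChar p X := by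
  by_cases hc : ∀ a b : X, a * b = b * a
  · exact (H88McM2.hasChar_or_homo hX hm hc).resolve_right hh
  · obtain ⟨K, hK1, hK2, hK⟩ := H88McM3e.exists_char_quot hX hm hc
    exact H88McM3a.hasChar_of_quot K
      (H88McM3d.hasChar_of_card_commutator hp (hX.to_quotient K) (Helper98MetaB.isMetacyclic_quotient hm K) hK)

theorem pcond {X : Type*} [Group X] [Finite X] [Nontrivial X] {p : ℕ} [Fact p.Prime] (hp : p ≠ 2)
    (hX : IsPGroup p X) (hm : Cfsg.IsMetacyclic X) (hh : ¬ Homo p X) : PCond p X :=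
  H88McM1.pcond_of_hasChar hX hm (hasChar_of_not_homo hp hX hm hh)

end Cfsg.Agent.Lib.H88McM
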