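import Cfsg.Agent.Lib.H88McDefs
import Cfsg.Agent.Lib.H88McSyl
import Cfsg.Agent.Lib.H88McTC
import Cfsg.Agent.Lib.Helper41SL2Inv

set_option autoImplicit false

namespace Cfsg.Agent.Lib.H88McSL

open Cfsg Cfsg.Agent.Lib.H88McDefs

open Matrix Cfsg.Agent.Lib.Helper46SL2 Cfsg.Agent.Lib.Helper41SL2

local notation "SL2" => Matrix.SpecialLinearGroup (Fin 2)

/-- A Sylow 2-subgroup `P` of `SL₂(F)`, `|F|` odd, is `Bad 2`. -/
theorem bad_sl2 {F : Type} [Field F] [Fintype F] (hodd : Odd (Fintype.card F)) (P : Sylow 2 (SL2 F)) :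
    Bad 2 ↥(P : Subgroup (SL2 F)) := by
  have h2 : (2 : F) ≠ 0 := Cfsg.Agent.Lib.Helper41SL2.two_ne_zero_of_odd hodd
  obtain ⟨k, m, A, c, w, hk, hm, htA, hcA, hcomm, hoc, hck, hwA, hww, hwc, hwn, hcP, hwP, hcard⟩ :=
    sylow_two_structure hodd P
  have hne : (-1 : SL2 F) ≠ 1 := by
    intro h
    have h3 := congrArg (fun B : SL2 F => B 0 0) h
    simp only [Helper46SL2.neg_apply, one_00] at h3
    apply h2
    linear_combination -h3
  obtain ⟨k', rfl⟩ : ∃ k', k = k' + 1 := ⟨k - 1, by omega⟩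
  have haa : c ^ 2 ^ k' * c ^ 2 ^ k' = -1 := by
    rw [← pow_add, ← two_mul, ← pow_succ']; exact hck
  refine H88McSyl.bad_of_sylow P {g | g * g = -1} ⟨w, hww, hwP⟩ ?_ ?_ ?_
  · intro h
    have h' : (1 : SL2 F) * 1 = -1 := h
    rw [one_mul] at h'
    exact hne h'.symm
  · intro a ha b hb
    exact isConj_of_tr_eq_zero h2 (tr_eq_zero_of_sq_eq_neg_one ha) (tr_eq_zero_of_sq_eq_neg_one hb)
  · refine H88McTC.tc_of_central _ ⟨c ^ 2 ^ k', pow_mem hcP _⟩ ⟨w, hwP⟩ haa hww ?_ ?_
    · intro h
      have h' : c ^ 2 ^ k' * w = w * c ^ 2 ^ k' := congrArg Subtype.val h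
      have h3 : w * c ^ 2 ^ k' * w⁻¹ = (c ^ 2 ^ k')⁻¹ := by
        rw [← conj_pow, hwc, inv_pow]
      rw [← h', mul_inv_cancel_right] at h3
      apply hne
      rw [← haa]
      nth_rewrite 1 [h3]
      exact inv_mul_cancel _
    · intro T _ hT t ht
      have hsq : ∀ u ∈ T, (u * u) * (u * u) = 1 → u * u = 1 := by
        intro u hu h4
        by_contra hu1
        apply hT u _ hu
        have h5 : ((u : SL2 F) * u) * ((u : SL2 F) * u) = 1 := congrArg Subtype.val h4
        rcases (sq_eq_one_iff' h2).mp h5 with h6 | h6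
        · exact absurd (Subtype.ext h6) hu1
        · exact h6
      have htt : t * t = 1 := by
        obtain ⟨j, hj⟩ := IsPGroup.iff_orderOf.mp P.2 t
        have hpow : t ^ 2 ^ j = 1 := by rw [← hj]; exact pow_orderOf_eq_one t
        clear hj
        induction j with
        | zero =>
          rw [pow_zero, pow_one] at hpow
          rw [hpow, one_mul]
        | succ j ih =>
          rcases Nat.eq_zero_or_pos j with rfl | hj0
          · rw [zero_add, pow_one, pow_two] at hpow
            exact hpow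
          · obtain ⟨i, rfl⟩ : ∃ i, j = i + 1 := ⟨j - 1, by omega⟩
            apply ih
            have h7 := hsq (t ^ 2 ^ i) (pow_mem ht _) (by
              rw [← pow_add, ← pow_add, ← hpow]
              congr 1
              ring)
            rw [← h7, ← pow_add]
            congr 1
            ring
      have h8 : ((t : SL2 F)) * t = 1 := congrArg Subtype.val htt
      have h9 : (t : SL2 F) ∈ Subgroup.center (SL2 F) :=
        mem_center_iff_eq.mpr ((sq_eq_one_iff' h2).mp h8)
      rw [Subgroup.mem_center_iff]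
      intro g
      exact Subtype.ext (Subgroup.mem_center_iff.mp h9 g)

end Cfsg.Agent.Lib.H88McSL
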