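import Cfsg.Agent.Lib.H88McDefs
import Cfsg.Agent.Lib.H88McSL
import Cfsg.Agent.Lib.H88McCard
import Cfsg.Agent.Lib.H88McCongr
import Cfsg.Agent.S0261

set_option autoImplicit false

namespace Cfsg.Agent.Lib.H88McQ

open Cfsg Cfsg.Agent.Lib.H88McDefs

/-- `H88McCard.exists_field_sl k hk` gives `q`, `F = ZMod q`, every Sylow 2-subgroup `P` of `SL₂(F)` has order `2^(k+2)`; take `P := default` (`Sylow.nonempty`/`Classical.arbitrary`).
`S0261.result hodd P` gives `k'` and `P ≃* QuaternionGroup (2^k')`; `QuaternionGroup.card : Fintype.card (QuaternionGroup n) = 4 * n` (`[NeZero n]`; `Nat.card_congr`, `Nat.card_eq_fintype_card`): `4 * 2^k' = 2^(k+2)` so `k' = k` (`Nat.pow_right_injective`).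
`H88McSL.bad_sl2 hodd P` + `H88McCongr.bad_congr`. -/
theorem bad_quaternion (k : ℕ) (hk : 1 ≤ k) : Bad 2 (QuaternionGroup (2 ^ k)) := by
  obtain ⟨q, hqp, hodd, hP⟩ := H88McCard.exists_field_sl k hk
  let P : Sylow 2 (Matrix.SpecialLinearGroup (Fin 2) (ZMod q)) := default
  obtain ⟨k', -, ⟨e⟩⟩ := Cfsg.Agent.S0261.result hodd P
  have hne : NeZero (2 ^ k') := ⟨by positivity⟩
  have h1 : Nat.card (QuaternionGroup (2 ^ k')) = 4 * 2 ^ k' := by
    rw [Nat.card_eq_fintype_card, QuaternionGroup.card]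
  have h2 : 2 ^ (k + 2) = 2 ^ (k' + 2) := by
    rw [← hP P, Nat.card_congr e.toEquiv, h1]; ring
  have h3 : k' = k := by
    have := Nat.pow_right_injective (le_refl 2) h2
    omega
  subst h3
  exact H88McCongr.bad_congr e (H88McSL.bad_sl2 hodd P)

end Cfsg.Agent.Lib.H88McQ
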