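import Cfsg.Agent.Lib.H88McDefs

set_option autoImplicit false

namespace Cfsg.Agent.Lib.H88McRed1

open Cfsg Cfsg.Agent.Lib.H88McDefs

/-- `DihedralGroup.nat_card : Nat.card (DihedralGroup n) = 2 * n`; `IsPGroup.iff_card` (X finite since `n ≠ 0`: transport `Finite` along `e`; `DihedralGroup n` is a Fintype for `[NeZero n]`):
`2 * n = 2^j`, so `n ∣ 2^j`, `(Nat.dvd_prime_pow Nat.prime_two).1`: `n = 2^k`; `k ≥ 1` as `n ≥ 2`. -/
theorem dihedral_two_pow {X : Type*} [Group X] (hX : IsPGroup 2 X) (n : ℕ) (hn : 2 ≤ n) (e : X ≃* DihedralGroup n) :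
    ∃ k : ℕ, 1 ≤ k ∧ n = 2 ^ k := by
  haveI : NeZero n := ⟨by omega⟩
  haveI : Finite X := Finite.of_equiv _ e.symm.toEquiv
  obtain ⟨j, hj⟩ := IsPGroup.iff_card.1 hX
  rw [Nat.card_congr e.toEquiv, DihedralGroup.nat_card] at hj
  have h1 : n ∣ 2 ^ j := Dvd.intro_left _ hj
  obtain ⟨k, -, hk⟩ := (Nat.dvd_prime_pow Nat.prime_two).1 h1
  refine ⟨k, ?_, hk⟩
  by_contra hcon
  have : k = 0 := by omega
  rw [this] at hk
  omega

/-- same with `QuaternionGroup.card : Fintype.card (QuaternionGroup n) = 4 * n`. -/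
theorem quaternion_two_pow {X : Type*} [Group X] (hX : IsPGroup 2 X) (n : ℕ) (hn : 2 ≤ n) (e : X ≃* QuaternionGroup n) :
    ∃ k : ℕ, 1 ≤ k ∧ n = 2 ^ k := by
  haveI : NeZero n := ⟨by omega⟩
  haveI : Finite X := Finite.of_equiv _ e.symm.toEquiv
  obtain ⟨j, hj⟩ := IsPGroup.iff_card.1 hX
  rw [Nat.card_congr e.toEquiv, Nat.card_eq_fintype_card, QuaternionGroup.card] at hj
  have h1 : n ∣ 2 ^ j := Dvd.intro_left _ hj
  obtain ⟨k, -, hk⟩ := (Nat.dvd_prime_pow Nat.prime_two).1 h1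
  refine ⟨k, ?_, hk⟩
  by_contra hcon
  have : k = 0 := by omega
  rw [this] at hk
  omega

end Cfsg.Agent.Lib.H88McRed1
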