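import Cfsg.Agent.Lib.H88McDefs

set_option autoImplicit false

namespace Cfsg.Agent.Lib.H88McRed2

open Cfsg Cfsg.Agent.Lib.H88McDefs

/-- `DihedralGroup 2` is a Klein four group (Mathlib: `DihedralGroup.isKleinFour`?), as is `Multiplicative (ZMod 2) × Multiplicative (ZMod 2)`; `IsKleinFour.mulEquiv`/`IsKleinFour.nonempty_mulEquiv`.  (`n = 1`, `2 ^ 1`.)
Or define the iso by hand + `decide`. -/
theorem homo_of_dihedral_two {X : Type*} [Group X] (e : X ≃* DihedralGroup 2) : Homo 2 X := by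
  refine ⟨1, one_pos, ?_⟩
  haveI : IsKleinFour (Multiplicative (ZMod (2 ^ 1)) × Multiplicative (ZMod (2 ^ 1))) := by
    refine ⟨?_, ?_⟩
    · rw [Nat.card_prod]
      simp
    · rw [Monoid.exponent_prod]
      simp
  obtain ⟨f⟩ := IsKleinFour.nonempty_mulEquiv (G₁ := DihedralGroup 2)
    (G₂ := Multiplicative (ZMod (2 ^ 1)) × Multiplicative (ZMod (2 ^ 1)))
  exact ⟨e.trans f⟩

end Cfsg.Agent.Lib.H88McRed2
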