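import Cfsg.Agent.Lib.H88McDefs
import Cfsg.Agent.Lib.Helper25SD

set_option autoImplicit false

namespace Cfsg.Agent.Lib.H88McSDIso1

open Cfsg Cfsg.Agent.Lib.H88McDefs

open Cfsg.Agent.Lib.Helper25Split Cfsg.Agent.Lib.Helper25SD

/-- the coordinate map -/
def co {A S : Type*} [Mul S] (e : A → S) (y : S) : A ⊕ A → S := Sum.elim e (fun a => e a * y)

/-- the multiplication table -/
def op {A : Type*} [Add A] (σ : A → A) : A ⊕ A → A ⊕ A → A ⊕ A
  | Sum.inl a, Sum.inl b => Sum.inl (a + b)
  | Sum.inl a, Sum.inr b => Sum.inr (a + b)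
  | Sum.inr a, Sum.inl b => Sum.inr (a + σ b)
  | Sum.inr a, Sum.inr b => Sum.inl (a + σ b)

theorem co_bij {A S : Type*} [AddCommGroup A] [Group S] {e : A → S} {y : S} {σ : A → A}
    (h : Split e y σ) : Function.Bijective (co e y) := by
  constructor
  · rintro (a | a) (b | b) hab
    · exact congrArg Sum.inl (h.e_eq.mp hab)
    · exact absurd hab (h.e_ne_f a b)
    · exact absurd hab.symm (h.e_ne_f b a)
    · exact congrArg Sum.inr (h.f_eq.mp hab)
  · intro g
    rcases h.cover g with ⟨a, rfl⟩ | ⟨a, rfl⟩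
    · exact ⟨Sum.inl a, rfl⟩
    · exact ⟨Sum.inr a, rfl⟩

theorem co_mul {A S : Type*} [AddCommGroup A] [Group S] {e : A → S} {y : S} {σ : A → A}
    (h : Split e y σ) (u v : A ⊕ A) : co e y u * co e y v = co e y (op σ u v) := by
  rcases u with a | a <;> rcases v with b | b
  · exact h.ee a b
  · exact h.ef a b
  · exact h.fe a b
  · exact h.ff a b

/-- two groups with the same `Split` coordinates are isomorphic: `e a ↦ e' a`, `e a * y ↦ e' a * y'`.
Define `f : S → S'` by `Classical.choice` on `h.cover`; use `Split.ee, ef, fe, ff` (multiplication table), `e_eq, f_eq, e_ne_f` for well-definedness/injectivity, `h'.cover` for surjectivity.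
(`MulEquiv.ofBijective (MonoidHom.mk' f hmul)`.) -/
theorem split_equiv {A S S' : Type*} [AddCommGroup A] [Group S] [Group S'] {e : A → S} {y : S} {e' : A → S'} {y' : S'}
    {σ : A → A} (h : Split e y σ) (h' : Split e' y' σ) : Nonempty (S ≃* S') := by
  let E := Equiv.ofBijective _ (co_bij h)
  let E' := Equiv.ofBijective _ (co_bij h')
  refine ⟨{ E.symm.trans E' with map_mul' := ?_ }⟩
  intro g₁ g₂
  obtain ⟨u, rfl⟩ := E.surjective g₁
  obtain ⟨v, rfl⟩ := E.surjective g₂
  have h1 : E u * E v = E (op σ u v) := co_mul h u v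
  show E' (E.symm (E u * E v)) = E' (E.symm (E u)) * E' (E.symm (E v))
  rw [h1, Equiv.symm_apply_apply, Equiv.symm_apply_apply, Equiv.symm_apply_apply]
  exact (co_mul h' u v).symm

end Cfsg.Agent.Lib.H88McSDIso1
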