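import Cfsg.Agent.Lib.H88McDefs
import Cfsg.Agent.Lib.Helper25SD
import Cfsg.Agent.Lib.H88McSDIso1

set_option autoImplicit false

namespace Cfsg.Agent.Lib.H88McSDIso

open Cfsg Cfsg.Agent.Lib.H88McDefs

open Cfsg.Agent.Lib.Helper25Split Cfsg.Agent.Lib.Helper25SD

/-- `Helper25SD.exists_split` for both; the cardinalities force the same `m`; `split_equiv`. -/
theorem qd_equiv {S S' : Type*} [Group S] [Group S'] [Finite S] [Finite S'] (h : Cfsg.IsQuasiDihedral S)
    (h' : Cfsg.IsQuasiDihedral S') (hc : Nat.card S = Nat.card S') : Nonempty (S ≃* S') := by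
  obtain ⟨m, e, y, hcard, hs⟩ := exists_split h
  obtain ⟨m', e', y', hcard', hs'⟩ := exists_split h'
  have hm : m = m' := by
    rw [hcard, hcard'] at hc
    have := Nat.pow_right_injective (le_refl 2) hc
    omega
  subst hm
  exact Cfsg.Agent.Lib.H88McSDIso1.split_equiv hs hs'

end Cfsg.Agent.Lib.H88McSDIso
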