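import Cfsg.Agent.Lib.H88McDefs
import Cfsg.Agent.Lib.H88McGL
import Cfsg.Agent.Lib.H88McCard2
import Cfsg.Agent.Lib.H88McCongr
import Cfsg.Agent.Lib.H88McSDIso

set_option autoImplicit false

namespace Cfsg.Agent.Lib.H88McSD

open Cfsg Cfsg.Agent.Lib.H88McDefs

open Matrix

/-- `X` quasi-dihedral with parameter `n` (`Nat.card X = 2^(n+1)`, so `Finite X` by `Nat.finite_of_card_ne_zero`).  `H88McCard2.exists_field_gl n hn` gives `q`; `F = ZMod q`; `P` any Sylow 2-subgroup of `GL (Fin 2) F` (order `2^(n+1)`);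
`Helper6GL2Syl.quasiDihedral_GL2 P hq`, `H88McSDIso.qd_equiv`, `H88McGL.bad_gl2 hq P`, `H88McCongr.bad_congr`. -/
theorem bad_qd {X : Type*} [Group X] (h : Cfsg.IsQuasiDihedral X) : Bad 2 X := by
  obtain ⟨n, hn, hcard, -⟩ := id h
  have : Finite X := Nat.finite_of_card_ne_zero (by rw [hcard]; positivity)
  obtain ⟨q, hqp, hq, hP⟩ := H88McCard2.exists_field_gl n hn
  let P : Sylow 2 (GL (Fin 2) (ZMod q)) := default
  have hqd := Cfsg.Agent.Lib.Helper6GL2Syl.quasiDihedral_GL2 P hq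
  obtain ⟨e⟩ := H88McSDIso.qd_equiv hqd h (by rw [hP P, hcard])
  exact H88McCongr.bad_congr e (H88McGL.bad_gl2 hq P)

end Cfsg.Agent.Lib.H88McSD
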