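import Cfsg.Agent.Lib.H88McDefs
import Cfsg.Agent.Lib.Helper98MetaB

set_option autoImplicit false

namespace Cfsg.Agent.Lib.H88McTwo

open Cfsg Cfsg.Agent.Lib.H88McDefs

/-- `m = 0`: `DihedralGroup 0` is infinite (`r : ZMod 0 = ℤ → DihedralGroup 0` injective), `X` finite.  `m = 1`: card 2, prime order, cyclic (`isCyclic_of_prime_card`).  `m ≥ 2`: `hd`. -/
theorem not_dihedral {X : Type*} [Group X] [Finite X] (hc : ¬ IsCyclic X)
    (hd : ¬ ∃ n : ℕ, 2 ≤ n ∧ Nonempty (X ≃* DihedralGroup n)) : ¬ ∃ m : ℕ, Nonempty (X ≃* DihedralGroup m) := by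
  rintro ⟨m, ⟨e⟩⟩
  rcases Nat.lt_or_ge m 2 with hm | hm
  · interval_cases m
    · have h1 : Nat.card X = 0 := by
        rw [Nat.card_congr e.toEquiv, DihedralGroup.nat_card]
      exact Nat.card_pos.ne' h1
    · have h1 : Nat.card X = 2 := by
        rw [Nat.card_congr e.toEquiv, DihedralGroup.nat_card]
      haveI : Fact (Nat.Prime 2) := ⟨Nat.prime_two⟩
      exact hc (isCyclic_of_prime_card h1)
  · exact hd ⟨m, hm, ⟨e⟩⟩

/-- `m = 0`: infinite.  `m = 1`: `QuaternionGroup.quaternionGroup_one_isCyclic`.  `m ≥ 2`: `hq`. -/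
theorem not_quaternion {X : Type*} [Group X] [Finite X] (hc : ¬ IsCyclic X)
    (hq : ¬ ∃ n : ℕ, 2 ≤ n ∧ Nonempty (X ≃* QuaternionGroup n)) : ¬ ∃ m : ℕ, Nonempty (X ≃* QuaternionGroup m) := by
  rintro ⟨m, ⟨e⟩⟩
  rcases Nat.lt_or_ge m 2 with hm | hm
  · interval_cases m
    · haveI : Finite (QuaternionGroup 0) := Finite.of_equiv _ e.toEquiv
      have h1 : orderOf (QuaternionGroup.a 1 : QuaternionGroup 0) = 2 * 0 := QuaternionGroup.orderOf_a_one
      have h2 := orderOf_pos (QuaternionGroup.a 1 : QuaternionGroup 0)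
      omega
    · haveI := QuaternionGroup.quaternionGroup_one_isCyclic
      exact hc (isCyclic_of_surjective e.symm e.symm.surjective)
  · exact hq ⟨m, hm, ⟨e⟩⟩

end Cfsg.Agent.Lib.H88McTwo
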