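import Cfsg.Agent.Lib.H88McDefs
import Cfsg.Agent.Lib.Helper98MetaB

set_option autoImplicit false

namespace Cfsg.Agent.Lib.H88McTwo1

open Cfsg Cfsg.Agent.Lib.H88McDefs

/-- A finite abelian metacyclic group has at most `4` solutions of `x * x = 1`... used to exclude rank ≥ 3.
`X ≃* Multiplicative (Fin k → ZMod (2^n))`, `X` metacyclic and not cyclic, not `Homo 2`: contradiction.
* `n = 0` or `k = 0`: the group is trivial (`ZMod 1` subsingleton), hence cyclic.  * `k = 1`: `Fin 1 → ZMod N ≃+ ZMod N` cyclic.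
* `k = 2`, `n > 0`: `Homo 2 X` (`Fin 2 → A ≃ A × A`: `LinearEquiv.finTwoArrow`/`MulEquiv.piFinTwo`/`AddEquiv`..).
* `k ≥ 3`, `n ≥ 1`: `Helper98MetaB.exists_gens hm` gives `a b` with every `g = a^j * b^i`.  Reduce mod squares: the map `X → X`, the quotient by squares has ≤ 4 elements (`g ≡ a^(j%2) b^(i%2)`),
  but `(Fin k → ZMod (2^n))` modulo `2` surjects onto `Fin 3 → ZMod 2` (8 elements): compose `e` with `v ↦ fun i : Fin 3 => ZMod.castHom (dvd 2 ∣ 2^n) (ZMod 2) (v i)`, a surjective hom `f : X →* Multiplicative (Fin 3 → ZMod 2)`,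
  whose image is `{f a ^ j * f b ^ i}` with `j, i ∈ {0,1}` (exponent 2): at most 4 elements < 8. -/
theorem not_homocyclic {X : Type*} [Group X] [Finite X] (hm : Cfsg.IsMetacyclic X) (hc : ¬ IsCyclic X) (hh : ¬ Homo 2 X) :
    ¬ ∃ n k : ℕ, Nonempty (X ≃* Multiplicative (Fin k → ZMod (2 ^ n))) := by
  rintro ⟨n, k, ⟨e⟩⟩
  have hsub : Subsingleton (Multiplicative (Fin k → ZMod (2 ^ n))) → False := by
    intro h
    have : Subsingleton X := e.toEquiv.subsingleton
    exact hc isCyclic_of_subsingleton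
  rcases Nat.eq_zero_or_pos n with rfl | hn
  · apply hsub
    have : Subsingleton (ZMod (2 ^ 0)) := by
      rw [pow_zero]
      exact (inferInstance : Subsingleton (Fin 1))
    exact (inferInstance : Subsingleton (Fin k → ZMod (2 ^ 0)))
  have hk : k = 0 ∨ k = 1 ∨ k = 2 ∨ 3 ≤ k := by omega
  rcases hk with rfl | rfl | rfl | hk
  · apply hsub
    exact (inferInstance : Subsingleton (Fin 0 → ZMod (2 ^ n)))
  · apply hc
    have e2 : X ≃* Multiplicative (ZMod (2 ^ n)) :=
      e.trans (AddEquiv.toMultiplicative (AddEquiv.funUnique (Fin 1) (ZMod (2 ^ n))))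
    exact e2.isCyclic.2 inferInstance
  · apply hh
    refine ⟨n, hn, ⟨?_⟩⟩
    exact (e.trans (AddEquiv.toMultiplicative
      (LinearEquiv.finTwoArrow (ZMod (2 ^ n)) (ZMod (2 ^ n))).toAddEquiv)).trans
      (MulEquiv.prodMultiplicative (G := ZMod (2 ^ n)) (H := ZMod (2 ^ n)))
  · have hdvd : 2 ∣ 2 ^ n := dvd_pow_self 2 hn.ne'
    let c : ZMod (2 ^ n) →+* ZMod 2 := ZMod.castHom hdvd (ZMod 2)
    have hcs : Function.Surjective c := ZMod.ringHom_surjective c
    let g : (Fin k → ZMod (2 ^ n)) →+ (Fin 3 → ZMod 2) :=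
      { toFun := fun v i => c (v (Fin.castLE hk i))
        map_zero' := by ext i; simp
        map_add' := by intro v w; ext i; simp }
    have hg : Function.Surjective g := by
      intro w
      refine ⟨fun j => if h : j.val < 3 then Function.surjInv hcs (w ⟨j.val, h⟩) else 0, ?_⟩
      ext i
      show c (if h : (Fin.castLE hk i).val < 3 then Function.surjInv hcs (w ⟨(Fin.castLE hk i).val, h⟩) else 0)
        = w i
      have hi : (Fin.castLE hk i).val < 3 := i.2
      rw [dif_pos hi, Function.surjInv_eq hcs]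
      rfl
    let f : X →* Multiplicative (Fin 3 → ZMod 2) := (AddMonoidHom.toMultiplicative g).comp e.toMonoidHom
    have hf : Function.Surjective f := by
      intro w
      obtain ⟨v, hv⟩ := hg (Multiplicative.toAdd w)
      refine ⟨e.symm (Multiplicative.ofAdd v), ?_⟩
      show (AddMonoidHom.toMultiplicative g) (e (e.symm (Multiplicative.ofAdd v))) = w
      rw [e.apply_symm_apply]
      exact congrArg Multiplicative.ofAdd hv
    have hsq : ∀ u : Multiplicative (Fin 3 → ZMod 2), u ^ 2 = 1 := by decide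
    obtain ⟨a, b, -, hab⟩ := Cfsg.Agent.Lib.Helper98MetaB.exists_gens hm
    let F : Fin 2 × Fin 2 → Multiplicative (Fin 3 → ZMod 2) := fun ji => f a ^ ji.1.val * f b ^ ji.2.val
    have hF : Function.Surjective F := by
      intro w
      obtain ⟨x, rfl⟩ := hf w
      obtain ⟨j, i, hx⟩ := hab x
      refine ⟨(⟨j % 2, Nat.mod_lt _ (by norm_num)⟩, ⟨i % 2, Nat.mod_lt _ (by norm_num)⟩), ?_⟩
      show f a ^ (j % 2) * f b ^ (i % 2) = f x
      rw [hx, map_mul, map_pow, map_pow, pow_eq_pow_mod j (hsq _), pow_eq_pow_mod i (hsq _)]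
    have h1 := Fintype.card_le_of_surjective F hF
    have h2 : Fintype.card (Multiplicative (Fin 3 → ZMod 2)) = 8 := by decide
    have h3 : Fintype.card (Fin 2 × Fin 2) = 4 := by decide
    omega

end Cfsg.Agent.Lib.H88McTwo1
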