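import Mathlib
import Cfsg.Agent.Lib.Helper87Hyperfocal

set_option autoImplicit false
set_option linter.unusedSectionVars false

namespace Cfsg.Agent.Lib.Helper87PPower

open Cfsg Cfsg.FusionSystem Cfsg.Agent.Lib.Helper87Fusion Cfsg.Agent.Lib.Helper87Fusion2
  Cfsg.Agent.Lib.Helper87Fusion3 Cfsg.Agent.Lib.Helper87Closed Cfsg.Agent.Lib.Helper87Sylow
  Cfsg.Agent.Lib.Helper87Realized Cfsg.Agent.Lib.Helper87Hyperfocal

variable {Ω : Type*} [Group Ω] {S : Subgroup Ω}

/-- A saturated subsystem of `F` over `T` is contained in every subsystem over `T` of `p`-power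
index. -/
theorem le_of_pPowerIndex [Finite S] {p : ℕ} [Fact p.Prime] (hS : IsPGroup p S)
    {F : FusionSystem S} {T : Subgroup Ω} (E E' : FusionSystem T) (hE : E.IsSaturated p)
    (hEF : E.IsSubsystemOf F) (hE' : E'.HasPPowerIndexIn F p) : E ≤ E' := by
  have hTS : T ≤ S := subsystem_le hEF
  have hfinT : Finite T := Cfsg.Agent.Lib.Helper86Fusion.finite_of_le hTS
  have hTp : IsPGroup p T := hS.to_le hTS
  apply Cfsg.Agent.Lib.Helper86Alperin.alperin hTp E hE
  intro P hP α hα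
  have hfn : E.IsFullyNormalized P := by
    rcases hP with rfl | hP
    · exact Cfsg.Agent.Lib.Helper86Fusion4.fullyNormalized_self E
    · exact hP.2.1
  obtain ⟨-, hfa, -⟩ := Cfsg.Agent.Lib.Helper86Fusion2.saturated_fullyNormalized hTp hE hfn
  have hPT := hfa.1
  have : Finite P := Cfsg.Agent.Lib.Helper86Fusion.finite_of_le hPT
  obtain ⟨R, hR⟩ := hfa.2
  obtain ⟨a, ha, b, hb, hab⟩ :=
    Cfsg.Agent.Lib.Helper86Group.exists_mul_of_pResidual_sylow R (⟨α, hα⟩ : E.autGroup P)
  have hb' : b ∈ (R : Subgroup (E.autGroup P)) := hb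
  rw [hR, Subgroup.mem_subgroupOf] at hb'
  have e1 : α = (a : MulAut P) * (b : MulAut P) := congrArg Subtype.val hab
  rw [e1]
  refine Subgroup.mul_mem _ ?_ (autInducedBy_le_autGroup E' hPT hb')
  apply hE'.2.2 P hPT
  exact ⟨_, pResidual_map (p := p) (Subgroup.inclusion (autGroup_le_of_subsystem hEF P)) ha, rfl⟩

theorem hom_subset_of_pPowerIndex [Finite S] {p : ℕ} [Fact p.Prime] (hS : IsPGroup p S)
    {F : FusionSystem S} {T T' : Subgroup Ω} (hTT' : T = T') (E : FusionSystem T)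
    (E' : FusionSystem T') (hE : E.IsSaturated p)
    (hEF : E.IsSubsystemOf F) (hE' : E'.HasPPowerIndexIn F p) (P : Subgroup Ω) :
    E.Hom P ⊆ E'.Hom P := by
  subst hTT'
  exact le_of_pPowerIndex hS E E' hE hEF hE' P

/-- uniqueness of the saturated subsystem of `p`-power index over `T`. -/
theorem pPowerIndex_unique [Finite S] {p : ℕ} [Fact p.Prime] (hS : IsPGroup p S)
    {F : FusionSystem S} {T : Subgroup Ω} (E E' : FusionSystem T) (hE : E.IsSaturated p)
    (hEF : E.HasPPowerIndexIn F p) (hE's : E'.IsSaturated p) (hE' : E'.HasPPowerIndexIn F p) :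
    E = E' :=
  Cfsg.Agent.Lib.Helper86Fusion4.fusionSystem_le_antisymm
    (le_of_pPowerIndex hS E E' hE hEF.1 hE') (le_of_pPowerIndex hS E' E hE's hE'.1 hEF)

theorem group_pPowerIndex {G : Type*} [Group G] [Finite G] {p : ℕ} [Fact p.Prime] (S : Sylow p G) :
    (fusionSystemOfSubgroup (pResidual p G) ((S : Subgroup G) ⊓ pResidual p G)
      inf_le_right).HasPPowerIndexIn (groupFusionSystem (S : Subgroup G)) p := by
  refine ⟨fusionSystemOfSubgroup_subsystem _ _ _ inf_le_right inf_le_left,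
    hyperfocal_group_le _, ?_⟩
  rintro P hP _ ⟨α, hα, rfl⟩
  obtain ⟨g, hg, hgα⟩ := exists_lift_of_mem_pResidual (hP.trans inf_le_left) hα
  rw [mem_autGroup_iff _ hP]
  exact ⟨hP, fun x => hP ((α : MulAut P) x).2, g, hg, hgα⟩

end Cfsg.Agent.Lib.Helper87PPower
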