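import Mathlib
import Cfsg.Agent.Lib.Helper87PPower
import Cfsg.Agent.Lib.Helper86Sub

set_option autoImplicit false
set_option linter.unusedSectionVars false

namespace Cfsg.Agent.Lib.Helper86PPower

open Cfsg Cfsg.FusionSystem Cfsg.Agent.Lib.Helper87Fusion Cfsg.Agent.Lib.Helper87Fusion2
  Cfsg.Agent.Lib.Helper87Fusion3 Cfsg.Agent.Lib.Helper87Closed Cfsg.Agent.Lib.Helper87Sylow
  Cfsg.Agent.Lib.Helper87Realized Cfsg.Agent.Lib.Helper87Hyperfocal

variable {Ω : Type*} [Group Ω] {S : Subgroup Ω}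

/-- A saturated subsystem of `F` over `T` is contained in every subsystem of `p`-power index over
a subgroup `U` containing `T`. -/
theorem subsystem_of_pPowerIndex [Finite S] {p : ℕ} [Fact p.Prime] (hS : IsPGroup p S)
    {F : FusionSystem S} {T U : Subgroup Ω} (E : FusionSystem T) (F₀ : FusionSystem U)
    (hE : E.IsSaturated p) (hEF : E.IsSubsystemOf F) (hTU : T ≤ U)
    (hidx : F₀.HasPPowerIndexIn F p) : E.IsSubsystemOf F₀ := by
  have hTS : T ≤ S := subsystem_le hEF
  have hfinT : Finite T := Cfsg.Agent.Lib.Helper86Fusion.finite_of_le hTS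
  have hTp : IsPGroup p T := hS.to_le hTS
  have key : ∀ {P : Subgroup Ω} {f : Ω → Ω}, IsMap E P f → IsMap F₀ P f := by
    intro P f hf
    refine Cfsg.Agent.Lib.Helper86Sub.alperin_induction hTp E hE (fun P f => IsMap F₀ P f)
      ?_ ?_ ?_ ?_ ?_ hf
    · intro P f g hfg h
      exact h.congr hfg
    · intro P g hP hg
      exact isMap_conj F₀ (hP.trans hTU) (hTU hg)
    · intro P Q f g _ _ h h1 h2
      exact h1.comp h2 h
    · intro P Q f g _ hQ hg hgf h1
      obtain ⟨g', hg', h2, -, -⟩ := h1.inv hQ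
      refine hg'.congr ?_
      intro y hy
      obtain ⟨x, hx, rfl⟩ := IsMap.exists_of_mem_image hQ hy
      rw [h2 x hx, hgf x hx]
    · intro P f hP hf hfP
      obtain ⟨α, hα, hαf⟩ := hf.exists_aut hfP
      have hfn : E.IsFullyNormalized P := by
        rcases hP with rfl | hP
        · exact Cfsg.Agent.Lib.Helper86Fusion4.fullyNormalized_self E
        · exact hP.2.1
      obtain ⟨-, hfa, -⟩ := Cfsg.Agent.Lib.Helper86Fusion2.saturated_fullyNormalized hTp hE hfn
      have hPT := hfa.1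
      have : Finite P := Cfsg.Agent.Lib.Helper86Fusion.finite_of_le hPT
      obtain ⟨R, hR⟩ := hfa.2
      obtain ⟨a, ha, b, hb, hab⟩ :=
        Cfsg.Agent.Lib.Helper86Group.exists_mul_of_pResidual_sylow R (⟨α, hα⟩ : E.autGroup P)
      have hb' : b ∈ (R : Subgroup (E.autGroup P)) := hb
      rw [hR, Subgroup.mem_subgroupOf] at hb'
      have e1 : α = (a : MulAut P) * (b : MulAut P) := congrArg Subtype.val hab
      rw [← mem_autGroup_iff_isMap F₀ (hPT.trans hTU) α hαf, e1]
      refine Subgroup.mul_mem _ ?_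
        (autInducedBy_le_autGroup F₀ (hPT.trans hTU) (autInducedBy_mono hTU P hb'))
      apply hidx.2.2 P (hPT.trans hTU)
      exact ⟨_, pResidual_map (p := p) (Subgroup.inclusion (autGroup_le_of_subsystem hEF P)) ha, rfl⟩
  intro P φ hφ
  exact (key (isMap_tot hφ)).hom_mem (fun x => (tot_apply φ x).symm)

end Cfsg.Agent.Lib.Helper86PPower
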