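import Mathlib
import Cfsg.Agent.Lib.Helper86PPower
import Cfsg.Agent.Lib.Helper87PrimeIndex
import Cfsg.Agent.Lib.Helper90NormalCrit
import Cfsg.Agent.Lib.Helper86Series

set_option autoImplicit false
set_option linter.unusedSectionVars false

/-! Saturated subsystems of `p`-power index over a normal subgroup are normal. -/

namespace Cfsg.Agent.Lib.Helper86PPowerN

open Cfsg Cfsg.FusionSystem Cfsg.Agent.Lib.Helper87Fusion Cfsg.Agent.Lib.Helper87Fusion2
  Cfsg.Agent.Lib.Helper87Fusion3 Cfsg.Agent.Lib.Helper87Closed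
  Cfsg.Agent.Lib.Helper87Hyperfocal Cfsg.Agent.Lib.Helper87Split
  Cfsg.Agent.Lib.Helper87PrimeIndex Cfsg.Agent.Lib.Helper86Fusion

variable {Ω : Type*} [Group Ω] {S T : Subgroup Ω}

/-- restriction of automorphisms to an invariant subgroup. -/
def resAut (F : FusionSystem S) {Q R : Subgroup Ω} (hRQ : R ≤ Q) (hQS : Q ≤ S)
    (hinv : ∀ α ∈ F.autGroup Q, ∀ x : Q, (x : Ω) ∈ R → ((α x : Q) : Ω) ∈ R) :
    F.autGroup Q →* F.autGroup R where
  toFun α := ⟨{ toFun := fun x => ⟨((α : MulAut Q) ⟨x, hRQ x.2⟩ : Q), hinv α α.2 _ x.2⟩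
                invFun := fun x => ⟨(((α : MulAut Q)⁻¹) ⟨x, hRQ x.2⟩ : Q),
                  hinv _ (Subgroup.inv_mem _ α.2) _ x.2⟩
                left_inv := fun x => by
                  apply Subtype.ext
                  simp
                right_inv := fun x => by
                  apply Subtype.ext
                  simp
                map_mul' := fun x y => by
                  apply Subtype.ext
                  have : (⟨((x * y : R) : Ω), hRQ (x * y).2⟩ : Q)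
                      = ⟨x, hRQ x.2⟩ * ⟨y, hRQ y.2⟩ := rfl
                  simp only [this, map_mul]
                  rfl },
    (mem_autGroup_iff_isMap F (hRQ.trans hQS) _ (f := totA (α : MulAut Q))
      (fun x => (totA_of_mem (α : MulAut Q) (hRQ x.2)).symm)).2
      (((mem_autGroup_iff_totA F hQS (α : MulAut Q)).1 α.2).restrict hRQ)⟩
  map_one' := by
    apply Subtype.ext
    ext x
    rfl
  map_mul' a b := by
    apply Subtype.ext
    ext x
    rfl

theorem resAut_apply (F : FusionSystem S) {Q R : Subgroup Ω} (hRQ : R ≤ Q) (hQS : Q ≤ S)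
    (hinv : ∀ α ∈ F.autGroup Q, ∀ x : Q, (x : Ω) ∈ R → ((α x : Q) : Ω) ∈ R)
    (α : F.autGroup Q) (x : R) :
    (((resAut F hRQ hQS hinv α : MulAut R) x : R) : Ω) = ((α : MulAut Q) ⟨x, hRQ x.2⟩ : Q) := rfl

/-- `Aut_F(P) = O^p(Aut_F(P)) Aut_S(P)` for fully normalized `P`. -/
theorem aut_decomp [Finite S] {p : ℕ} [Fact p.Prime] (hS : IsPGroup p S) {F : FusionSystem S}
    (hF : F.IsSaturated p) {P : Subgroup Ω} (hfn : F.IsFullyNormalized P) {α : MulAut P}
    (hα : α ∈ F.autGroup P) :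
    ∃ a : F.autGroup P, a ∈ pResidual p (F.autGroup P) ∧ ∃ b ∈ autInducedBy S P,
      α = (a : MulAut P) * b := by
  obtain ⟨-, hfa, -⟩ := Cfsg.Agent.Lib.Helper86Fusion2.saturated_fullyNormalized hS hF hfn
  have hPS := hfa.1
  have : Finite P := finite_of_le hPS
  obtain ⟨R, hR⟩ := hfa.2
  obtain ⟨a, ha, b, hb, hab⟩ :=
    Cfsg.Agent.Lib.Helper86Group.exists_mul_of_pResidual_sylow R (⟨α, hα⟩ : F.autGroup P)
  have hb' : b ∈ (R : Subgroup (F.autGroup P)) := hb
  rw [hR, Subgroup.mem_subgroupOf] at hb'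
  exact ⟨a, ha, b, hb', congrArg Subtype.val hab⟩

theorem aut_decomp' [Finite S] {p : ℕ} [Fact p.Prime] (hS : IsPGroup p S) {F : FusionSystem S}
    (hF : F.IsSaturated p) {P : Subgroup Ω} (hfn : F.IsFullyNormalized P) {α : MulAut P}
    (hα : α ∈ F.autGroup P) :
    ∃ a : F.autGroup P, a ∈ pResidual p (F.autGroup P) ∧ ∃ b ∈ autInducedBy S P,
      α = b * (a : MulAut P) := by
  obtain ⟨a, ha, b, hb, hab⟩ := aut_decomp hS hF hfn (Subgroup.inv_mem _ hα)
  refine ⟨a⁻¹, Subgroup.inv_mem _ ha, b⁻¹, Subgroup.inv_mem _ hb, ?_⟩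
  have : α = ((a : MulAut P) * b)⁻¹ := by rw [← hab, inv_inv]
  rw [this, mul_inv_rev]
  rfl

theorem fn_of_alperin [Finite S] {p : ℕ} {F : FusionSystem S} {P : Subgroup Ω}
    (hP : P = S ∨ F.IsEssential p P) : F.IsFullyNormalized P := by
  rcases hP with rfl | hP
  · exact Cfsg.Agent.Lib.Helper86Fusion4.fullyNormalized_self F
  · exact hP.2.1

theorem mem_hyperfocal {F : FusionSystem S} {p : ℕ} {P : Subgroup Ω} (hP : P ≤ S)
    {a : F.autGroup P} (ha : a ∈ pResidual p (F.autGroup P)) (x : P) :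
    (x : Ω)⁻¹ * ((a : MulAut P) x : P) ∈ F.hyperfocalSubgroup p :=
  Subgroup.subset_closure ⟨P, a, x, hP, ha, rfl⟩

/-- A normal subgroup of `S` containing the hyperfocal subgroup is strongly closed. -/
theorem stronglyClosed_of_hyperfocal_le [Finite S] {p : ℕ} [Fact p.Prime] (hS : IsPGroup p S)
    {F : FusionSystem S} (hF : F.IsSaturated p) (hTS : T ≤ S)
    (hTn : ∀ s ∈ S, ∀ x ∈ T, s * x * s⁻¹ ∈ T) (hT : F.hyperfocalSubgroup p ≤ T) :
    F.StronglyClosed T := by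
  apply stronglyClosed_of_alperin hS hF hTS
  intro P hP α hα x hx
  have hfn := fn_of_alperin hP
  obtain ⟨a, ha, b, hb, rfl⟩ := aut_decomp hS hF hfn hα
  obtain ⟨s, hs, hsb⟩ := (mem_autInducedBy_iff S P b).1 hb
  have h1 : ((b x : P) : Ω) ∈ T := by rw [hsb]; exact hTn s hs _ hx
  have h2 := hT (mem_hyperfocal hfn.1 ha (b x))
  have h3 := T.mul_mem h1 h2
  rw [mul_inv_cancel_left] at h3
  exact h3

/-- transport of `O^p(Aut_F(R))` along an isomorphism of `F`. -/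
theorem congr_mem_pResidual {F : FusionSystem S} {p : ℕ} {R R' : Subgroup Ω} {a : Ω → Ω}
    (ha : IsMap F R a) (hR' : a '' (R : Set Ω) = (R' : Set Ω)) (e : R ≃* R')
    (he : ∀ x : R, ((e x : R') : Ω) = a x) {β : F.autGroup R}
    (hβ : β ∈ pResidual p (F.autGroup R)) :
    MulAut.congr e (β : MulAut R) ∈ (pResidual p (F.autGroup R')).map (F.autGroup R').subtype := by
  unfold pResidual at hβ ⊢
  induction hβ using Subgroup.closure_induction with
  | mem x hx =>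
    have hm := Cfsg.Agent.Lib.Helper87KNorm.congr_mem_autGroup ha hR' e he x.2
    refine ⟨⟨_, hm⟩, Subgroup.subset_closure ?_, rfl⟩
    have h1 : orderOf (⟨_, hm⟩ : F.autGroup R') = orderOf x := by
      rw [← Subgroup.orderOf_coe, ← Subgroup.orderOf_coe]
      exact orderOf_injective (MulAut.congr e).toMonoidHom (MulAut.congr e).injective _
    show (orderOf (⟨_, hm⟩ : F.autGroup R')).Coprime p
    rw [h1]
    exact hx
  | one => simp only [Subgroup.coe_one, map_one]; exact Subgroup.one_mem _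
  | mul x y _ _ hx hy => simp only [Subgroup.coe_mul, map_mul]; exact Subgroup.mul_mem _ hx hy
  | inv x _ hx => simp only [Subgroup.coe_inv, map_inv]; exact Subgroup.inv_mem _ hx

/-- A saturated subsystem of `p`-power index is invariant under `Aut_F(T)`. -/
theorem AI_of_pPowerIndex [Finite S] {p : ℕ} [Fact p.Prime] (hS : IsPGroup p S)
    {F : FusionSystem S} {E : FusionSystem T} (hE : E.IsSaturated p)
    (hidx : E.HasPPowerIndexIn F p) (hT : F.StronglyClosed T) : AI E F := by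
  have hTS : T ≤ S := hT.1
  have hfinT : Finite T := finite_of_le hTS
  have hTp : IsPGroup p T := hS.to_le hTS
  intro P P' c b hc
  revert P' b
  refine Cfsg.Agent.Lib.Helper86Sub.alperin_induction hTp E hE
    (fun P c => ∀ (P' : Subgroup Ω) (b : Ω → Ω), IsMap F T b → b '' (P : Set Ω) = (P' : Set Ω) →
      ∃ d, IsMap E P' d ∧ ∀ x ∈ P, d (b x) = b (c x)) ?_ ?_ ?_ ?_ ?_ hc
  · intro P f g hfg h P' b hb hP'
    obtain ⟨d, hd, hd'⟩ := h P' b hb hP'
    exact ⟨d, hd, fun x hx => by rw [hd' x hx, hfg x hx]⟩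
  · intro P g hP hg P' b hb hP'
    have hbT := image_of_stronglyClosed hT hb le_rfl
    have hP'T : P' ≤ T := by
      intro y hy
      obtain ⟨x, hx, rfl⟩ := IsMap.exists_of_mem_image hP' hy
      exact IsMap.mem_image hbT (hP hx)
    refine ⟨fun y => b g * y * (b g)⁻¹, isMap_conj E hP'T (IsMap.mem_image hbT hg), fun x hx => ?_⟩
    show b g * b x * (b g)⁻¹ = b (g * x * g⁻¹)
    rw [hb.map_mul (T.mul_mem hg (hP hx)) (T.inv_mem hg), hb.map_mul hg (hP hx), hb.map_inv hg]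
  · intro P Q f g hf hg h h1 h2 P' b hb hP'
    obtain ⟨Q', hQ'⟩ := hb.exists_image_of_le hg.le
    obtain ⟨d1, hd1, hd1'⟩ := h1 P' b hb hP'
    obtain ⟨d2, hd2, hd2'⟩ := h2 Q' b hb hQ'
    refine ⟨fun y => d2 (d1 y), hd1.comp hd2 ?_, fun x hx => ?_⟩
    · intro y hy
      obtain ⟨x, hx, rfl⟩ := IsMap.exists_of_mem_image hP' hy
      rw [hd1' x hx]
      exact IsMap.mem_image hQ' (h x hx)
    · show d2 (d1 (b x)) = b (g (f x))
      rw [hd1' x hx, hd2' _ (h x hx)]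
  · intro P Q f g hf hQ hg hgf h1 Q' b hb hQ'
    obtain ⟨P', hP'⟩ := hb.exists_image_of_le hf.le
    obtain ⟨d, hd, hd'⟩ := h1 P' b hb hP'
    have hdim : d '' (P' : Set Ω) = (Q' : Set Ω) := by
      rw [← hP', ← hQ', ← hQ, Set.image_image, Set.image_image]
      exact Set.image_congr hd'
    obtain ⟨di, hdi, i1, i2, i3⟩ := hd.inv hdim
    refine ⟨di, hdi, fun y hy => ?_⟩
    obtain ⟨x, hx, rfl⟩ := IsMap.exists_of_mem_image hQ hy
    rw [hgf x hx, ← hd' x hx, i1 _ (IsMap.mem_image hP' hx)]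
  · intro P f hP hf hfP P' b hb hP'
    have hfn := fn_of_alperin hP
    have hPT := hfn.1
    obtain ⟨α, hα, hαf⟩ := hf.exists_aut hfP
    obtain ⟨a, ha, β, hβ, rfl⟩ := aut_decomp hTp hE hfn hα
    obtain ⟨t, ht, htβ⟩ := (mem_autInducedBy_iff T P β).1 hβ
    have hbT := image_of_stronglyClosed hT hb le_rfl
    have hP'T : P' ≤ T := by
      intro y hy
      obtain ⟨x, hx, rfl⟩ := IsMap.exists_of_mem_image hP' hy
      exact IsMap.mem_image hbT (hPT hx)
    have hbP : IsMap F P b := hb.restrict hPT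
    obtain ⟨e, he⟩ := exists_mulEquiv hbP hP'
    have ha' : Subgroup.inclusion (autGroup_le_of_subsystem hidx.1 P) a
        ∈ pResidual p (F.autGroup P) := pResidual_map _ ha
    have h1 := hidx.2.2 P' hP'T (congr_mem_pResidual hbP hP' e he ha')
    have h2 := (mem_autGroup_iff_totA E hP'T _).1 h1
    have hconj : IsMap E P' (fun y => b t * y * (b t)⁻¹) :=
      isMap_conj E hP'T (IsMap.mem_image hbT ht)
    have hkey : ∀ x : P, b t * b x * (b t)⁻¹ = ((e (β x) : P') : Ω) := by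
      intro x
      rw [he, htβ, hb.map_mul (T.mul_mem ht (hPT x.2)) (T.inv_mem ht), hb.map_mul ht (hPT x.2),
        hb.map_inv ht]
    refine ⟨_, hconj.comp h2 ?_, fun x hx => ?_⟩
    · intro y hy
      obtain ⟨x, hx, rfl⟩ := IsMap.exists_of_mem_image hP' hy
      rw [hkey ⟨x, hx⟩]
      exact (e _).2
    · show totA _ (b t * b x * (b t)⁻¹) = b (f x)
      rw [hkey ⟨x, hx⟩, totA_apply, ← hαf ⟨x, hx⟩, ← he]
      simp [MulAut.congr]

/-- Every map of `F`, restricted to `T`, is a map of `E` followed by conjugation by an element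
of `S`. -/
theorem frattini_of_pPowerIndex [Finite S] {p : ℕ} [Fact p.Prime] (hS : IsPGroup p S)
    {F : FusionSystem S} (hF : F.IsSaturated p) {E : FusionSystem T} (hE : E.IsSaturated p)
    (hidx : E.HasPPowerIndexIn F p) (hT : F.StronglyClosed T) {P : Subgroup Ω} {f : Ω → Ω}
    (hf : IsMap F P f) :
    ∃ s ∈ S, ∃ f₀, IsMap E (P ⊓ T) f₀ ∧ ∀ x ∈ P ⊓ T, f x = s * f₀ x * s⁻¹ := by
  have hTS : T ≤ S := hT.1
  have hAI := AI_of_pPowerIndex hS hE hidx hT
  refine Cfsg.Agent.Lib.Helper86Sub.alperin_induction hS F hF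
    (fun P f => ∃ s ∈ S, ∃ f₀, IsMap E (P ⊓ T) f₀ ∧ ∀ x ∈ P ⊓ T, f x = s * f₀ x * s⁻¹)
    ?_ ?_ ?_ ?_ ?_ hf
  · rintro P f g hfg ⟨s, hs, f₀, hf₀, h⟩
    exact ⟨s, hs, f₀, hf₀, fun x hx => by rw [← hfg x hx.1, h x hx]⟩
  · intro P g hP hg
    exact ⟨g, hg, fun x => x, isMap_id' E inf_le_right, fun x _ => rfl⟩
  · rintro P Q f g hf hg h ⟨s, hs, f₀, hf₀, hff⟩ ⟨u, hu, g₀, hg₀, hgg⟩
    have hb : IsMap F T (fun y => s⁻¹ * y * s⁻¹⁻¹) := isMap_conj F hTS (S.inv_mem hs)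
    obtain ⟨P', hP'⟩ := hb.exists_image_of_le (inf_le_right : Q ⊓ T ≤ T)
    obtain ⟨d, hd, hd'⟩ := hAI (Q ⊓ T) P' g₀ _ hg₀ hb hP'
    have hfx : ∀ x ∈ P ⊓ T, f x ∈ Q ⊓ T := fun x hx =>
      ⟨h x hx.1, StronglyClosed_mem hT hf hx.1 hx.2⟩
    have hf₀x : ∀ x ∈ P ⊓ T, f₀ x = s⁻¹ * f x * s⁻¹⁻¹ := fun x hx => by
      rw [hff x hx]; group
    refine ⟨u * s, S.mul_mem hu hs, fun x => d (f₀ x), hf₀.comp hd ?_, fun x hx => ?_⟩
    · intro x hx
      rw [hf₀x x hx]
      exact IsMap.mem_image hP' (hfx x hx)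
    · show g (f x) = u * s * d (f₀ x) * (u * s)⁻¹
      rw [hgg _ (hfx x hx), hf₀x x hx, hd' _ (hfx x hx)]
      group
  · rintro P Q f g hf hQ hg hgf ⟨s, hs, f₀, hf₀, hff⟩
    obtain ⟨R₀, hR₀⟩ := hf₀.exists_image
    obtain ⟨fi, hfi, i1, i2, i3⟩ := hf₀.inv hR₀
    have hb : IsMap F T (fun y => s * y * s⁻¹) := isMap_conj F hTS hs
    have him : (fun y => s * y * s⁻¹) '' (R₀ : Set Ω) = ((Q ⊓ T : Subgroup Ω) : Set Ω) := by
      ext y
      constructor
      · rintro ⟨z, hz, rfl⟩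
        obtain ⟨x, hx, rfl⟩ := IsMap.exists_of_mem_image hR₀ hz
        show s * f₀ x * s⁻¹ ∈ Q ⊓ T
        rw [← hff x hx]
        exact ⟨IsMap.mem_image hQ hx.1, StronglyClosed_mem hT hf hx.1 hx.2⟩
      · intro hy
        obtain ⟨x, hx, rfl⟩ := IsMap.exists_of_mem_image hQ hy.1
        have hxT : x ∈ T := (StronglyClosed_mem_iff hT hf hx).1 hy.2
        exact ⟨f₀ x, IsMap.mem_image hR₀ ⟨hx, hxT⟩, (hff x ⟨hx, hxT⟩).symm⟩
    obtain ⟨d, hd, hd'⟩ := hAI R₀ (Q ⊓ T) fi _ hfi hb him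
    refine ⟨s⁻¹, S.inv_mem hs, d, hd, fun y hy => ?_⟩
    obtain ⟨x, hx, rfl⟩ := IsMap.exists_of_mem_image hQ hy.1
    have hxT : x ∈ T := (StronglyClosed_mem_iff hT hf hx).1 hy.2
    rw [hgf x hx, hff x ⟨hx, hxT⟩, hd' _ (IsMap.mem_image hR₀ ⟨hx, hxT⟩), i1 x ⟨hx, hxT⟩]
    group
  · intro P f hP hf hfP
    have hfn := fn_of_alperin hP
    have hPS := hfn.1
    obtain ⟨α, hα, hαf⟩ := hf.exists_aut hfP
    obtain ⟨a, ha, β, hβ, rfl⟩ := aut_decomp' hS hF hfn hα
    obtain ⟨s, hs, hsβ⟩ := (mem_autInducedBy_iff S P β).1 hβ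
    have hinv : ∀ α ∈ F.autGroup P, ∀ x : P, (x : Ω) ∈ P ⊓ T → ((α x : P) : Ω) ∈ P ⊓ T := by
      intro α hα x hx
      refine ⟨(α x).2, ?_⟩
      rw [← totA_apply]
      exact StronglyClosed_mem hT ((mem_autGroup_iff_totA F hPS α).1 hα) x.2 hx.2
    have h1 : resAut F inf_le_left hPS hinv a ∈ pResidual p (F.autGroup (P ⊓ T)) :=
      pResidual_map _ ha
    have h2 := hidx.2.2 (P ⊓ T) inf_le_right ⟨_, h1, rfl⟩
    refine ⟨s, hs, _, (mem_autGroup_iff_totA E inf_le_right _).1 h2, fun x hx => ?_⟩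
    rw [← hαf ⟨x, hx.1⟩, MulAut.mul_apply, hsβ, totA_of_mem _ hx]
    rfl

theorem mem_QC_iff {Q : Subgroup Ω} (hQS : Q ≤ S) {x : Ω} :
    x ∈ Q ⊔ centralizerIn S Q ↔ x ∈ S ∧ ∃ q ∈ Q, ∀ y ∈ Q, x * y * x⁻¹ = q * y * q⁻¹ := by
  constructor
  · intro hx
    refine ⟨(sup_le hQS (centralizerIn_le S Q)) hx, ?_⟩
    have hn : ∀ a ∈ Q, ∀ c ∈ centralizerIn S Q, a⁻¹ * c * a ∈ centralizerIn S Q := by
      intro a ha c hc
      obtain ⟨hcS, hcc⟩ := mem_centralizerIn.1 hc
      have : a⁻¹ * c * a = c := by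
        rw [mul_assoc, ← hcc a ha, inv_mul_cancel_left]
      rw [this]; exact hc
    obtain ⟨q, hq, c, hc, rfl⟩ := Cfsg.Agent.Lib.Helper86Series.mem_sup_of_normalizes hn x hx
    refine ⟨q, hq, fun y hy => ?_⟩
    obtain ⟨-, hcc⟩ := mem_centralizerIn.1 hc
    have : c * y * c⁻¹ = y := by rw [← hcc y hy, mul_inv_cancel_right]
    calc q * c * y * (q * c)⁻¹ = q * (c * y * c⁻¹) * q⁻¹ := by group
      _ = q * y * q⁻¹ := by rw [this]
  · rintro ⟨hxS, q, hq, h⟩
    have hc : q⁻¹ * x ∈ centralizerIn S Q := by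
      rw [mem_centralizerIn]
      refine ⟨mul_mem (S.inv_mem (hQS hq)) hxS, fun y hy => ?_⟩
      calc y * (q⁻¹ * x) = q⁻¹ * (q * y * q⁻¹) * x := by group
        _ = q⁻¹ * (x * y * x⁻¹) * x := by rw [h y hy]
        _ = q⁻¹ * x * y := by group
    have := mul_mem (Subgroup.mem_sup_left (T := centralizerIn S Q) hq)
      (Subgroup.mem_sup_right (S := Q) hc)
    rwa [mul_inv_cancel_left] at this

/-- A surjective homomorphism maps `O^p` onto `O^p`. -/
theorem exists_lift_pResidual {A B : Type*} [Group A] [Group B] [Finite A] {p : ℕ}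
    [Fact p.Prime] (f : A →* B) (hf : Function.Surjective f) {b : B} (hb : b ∈ pResidual p B) :
    ∃ a ∈ pResidual p A, f a = b := by
  have hpp : p.Prime := Fact.out
  unfold pResidual at hb
  induction hb using Subgroup.closure_induction with
  | mem b hb =>
    obtain ⟨g, rfl⟩ := hf b
    have hord : orderOf g ≠ 0 := (orderOf_pos g).ne'
    set k := (orderOf g).factorization p with hk
    set m := ordCompl[p] (orderOf g) with hm
    have hmcop : p.Coprime m := Nat.coprime_ordCompl hpp hord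
    have hb' : (orderOf (f g)).Coprime p := hb
    obtain ⟨u, hu⟩ := exists_pow_eq_self_of_coprime (x := f g) (n := p ^ k)
      (Nat.Coprime.pow_left k hb'.symm)
    refine ⟨(g ^ p ^ k) ^ u, Subgroup.subset_closure ?_, ?_⟩
    · have h1 : (g ^ p ^ k) ^ m = 1 := by
        rw [← pow_mul, Nat.ordProj_mul_ordCompl_eq_self, pow_orderOf_eq_one]
      have h2 : orderOf ((g ^ p ^ k) ^ u) ∣ m :=
        (orderOf_pow_dvd u).trans (orderOf_dvd_of_pow_eq_one h1)
      exact Nat.Coprime.coprime_dvd_left h2 hmcop.symm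
    · rw [map_pow, map_pow, hu]
  | one => exact ⟨1, Subgroup.one_mem _, map_one f⟩
  | mul x y _ _ hx hy =>
    obtain ⟨a, ha, rfl⟩ := hx
    obtain ⟨b, hb, rfl⟩ := hy
    exact ⟨a * b, Subgroup.mul_mem _ ha hb, map_mul f a b⟩
  | inv x _ hx =>
    obtain ⟨a, ha, rfl⟩ := hx
    exact ⟨a⁻¹, Subgroup.inv_mem _ ha, map_inv f a⟩

/-- restriction `Aut_F(T C_S(T)) → Aut_F(T)` is onto for strongly closed `T`. -/
theorem resAut_surjective [Finite S] {p : ℕ} [Fact p.Prime] (hS : IsPGroup p S)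
    {F : FusionSystem S} (hF : F.IsSaturated p) (hT : F.StronglyClosed T)
    (hQS : T ⊔ centralizerIn S T ≤ S)
    (hinv : ∀ α ∈ F.autGroup (T ⊔ centralizerIn S T), ∀ x : ↥(T ⊔ centralizerIn S T),
      (x : Ω) ∈ T → ((α x : ↥(T ⊔ centralizerIn S T)) : Ω) ∈ T) :
    Function.Surjective (resAut F le_sup_left hQS hinv) := by
  have hTS : T ≤ S := hT.1
  intro γ
  obtain ⟨-, -, hrec⟩ := Cfsg.Agent.Lib.Helper86Fusion2.saturated_fullyNormalized hS hF
    (fullyNormalized_of_stronglyClosed hT)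
  have hγ := (mem_autGroup_iff_totA F hTS (γ : MulAut T)).1 γ.2
  have hTn : ∀ s ∈ S, ∀ x ∈ T, s * x * s⁻¹ ∈ T := fun s hs x hx =>
    StronglyClosed_mem hT (isMap_conj F hTS hs) hx hx
  obtain ⟨f', hf', hf'γ⟩ := isReceptive_extend (N := T ⊔ centralizerIn S T) hrec hγ
    (totA_image (γ : MulAut T)) (fun g hg => by
      obtain ⟨hgS, q, hq, hgq⟩ := (mem_QC_iff hTS).1 hg
      refine ⟨hgS, mem_normalizer_of_conj_mem (hTn g hgS) (fun y hy => ?_), totA (γ : MulAut T) q,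
        hγ.mem hq, fun x hx => ?_⟩
      · have := hTn g⁻¹ (S.inv_mem hgS) y hy
        rwa [inv_inv] at this
      · rw [hgq x hx, hγ.map_conj hq hx])
  have hf'T : f' '' (T : Set Ω) = (T : Set Ω) := image_of_stronglyClosed hT hf' le_sup_left
  have hmaps : ∀ x ∈ T ⊔ centralizerIn S T, f' x ∈ T ⊔ centralizerIn S T := by
    intro x hx
    obtain ⟨hxS, q, hq, hxq⟩ := (mem_QC_iff hTS).1 hx
    rw [mem_QC_iff hTS]
    refine ⟨hf'.mem hx, f' q, IsMap.mem_image hf'T hq, fun y hy => ?_⟩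
    obtain ⟨z, hz, rfl⟩ := IsMap.exists_of_mem_image hf'T hy
    rw [← hf'.map_conj hx (Subgroup.mem_sup_left hz),
      ← hf'.map_conj (Subgroup.mem_sup_left hq) (Subgroup.mem_sup_left hz), hxq z hz]
  obtain ⟨δ, hδ, hδf⟩ := hf'.exists_aut
    (Cfsg.Agent.Lib.Helper88Normal.image_eq_of_maps_to hf' hmaps)
  refine ⟨⟨δ, hδ⟩, ?_⟩
  apply Subtype.ext
  ext x
  rw [resAut_apply]
  show ((δ _ : ↥(T ⊔ centralizerIn S T)) : Ω) = _
  rw [hδf]
  show f' (x : Ω) = _
  rw [hf'γ x x.2, totA_apply]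

/-- A saturated subsystem of `p`-power index over a normal subgroup of `S` is normal. -/
theorem normal_of_pPowerIndex [Finite S] {p : ℕ} [Fact p.Prime] (hS : IsPGroup p S)
    {F : FusionSystem S} (hF : F.IsSaturated p) {E : FusionSystem T} (hE : E.IsSaturated p)
    (hidx : E.HasPPowerIndexIn F p) (hTn : ∀ s ∈ S, ∀ x ∈ T, s * x * s⁻¹ ∈ T) :
    E.IsNormalIn F p := by
  have hTS : T ≤ S := subsystem_le hidx.1
  have hfinT : Finite T := finite_of_le hTS
  have hTp : IsPGroup p T := hS.to_le hTS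
  have hT := stronglyClosed_of_hyperfocal_le hS hF hTS hTn hidx.2.1
  refine Cfsg.Agent.Lib.Helper90NormalCrit.isNormalIn_of hE hF
    (fun P f h => IsMap_of_subsystem hidx.1 h) hT (AI_of_pPowerIndex hS hE hidx hT) ?_ ?_
  · intro P f hPT hf
    obtain ⟨s, hs, f₀, hf₀, h⟩ := frattini_of_pPowerIndex hS hF hE hidx hT hf
    rw [inf_eq_left.2 hPT] at hf₀ h
    exact ⟨fun y => s * y * s⁻¹, f₀, isMap_conj F hTS hs, hf₀, h⟩
  · intro a ha
    have hQS : T ⊔ centralizerIn S T ≤ S := sup_le hTS (centralizerIn_le S T)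
    have hfinQ : Finite ↥(T ⊔ centralizerIn S T) := finite_of_le hQS
    have him : a '' (T : Set Ω) = (T : Set Ω) :=
      Cfsg.Agent.Lib.Helper88Normal.image_eq_of_maps_to ha (fun x hx => ha.mem hx)
    obtain ⟨α, hα, hαa⟩ := ha.exists_aut him
    obtain ⟨a₁, ha₁, β, hβ, rfl⟩ := aut_decomp hTp hE
      (Cfsg.Agent.Lib.Helper86Fusion4.fullyNormalized_self E) hα
    obtain ⟨t, ht, htβ⟩ := (mem_autInducedBy_iff T T β).1 hβ
    have hinv : ∀ α ∈ F.autGroup (T ⊔ centralizerIn S T), ∀ x : ↥(T ⊔ centralizerIn S T),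
        (x : Ω) ∈ T → ((α x : ↥(T ⊔ centralizerIn S T)) : Ω) ∈ T := by
      intro α hα x hx
      rw [← totA_apply]
      exact StronglyClosed_mem hT ((mem_autGroup_iff_totA F hQS α).1 hα) x.2 hx
    have ha₁' : Subgroup.inclusion (autGroup_le_of_subsystem hidx.1 T) a₁
        ∈ pResidual p (F.autGroup T) := pResidual_map _ ha₁
    obtain ⟨â, hâ, hâa⟩ := exists_lift_pResidual _ (resAut_surjective hS hF hT hQS hinv) ha₁'
    have hâT : ∀ y : T, totA (â : MulAut ↥(T ⊔ centralizerIn S T)) y = ((a₁ : MulAut T) y : T) := by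
      intro y
      have h1 := resAut_apply F le_sup_left hQS hinv â y
      rw [hâa] at h1
      rw [totA_of_mem _ (Subgroup.mem_sup_left y.2 : (y : Ω) ∈ T ⊔ centralizerIn S T), ← h1]
      rfl
    have hâm := (mem_autGroup_iff_totA F hQS (â : MulAut ↥(T ⊔ centralizerIn S T))).1 â.2
    have htQ : t ∈ T ⊔ centralizerIn S T := Subgroup.mem_sup_left ht
    have hb : IsMap F (T ⊔ centralizerIn S T)
        (fun x => totA (â : MulAut ↥(T ⊔ centralizerIn S T)) (t * x * t⁻¹)) :=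
      (isMap_conj F hQS (hTS ht)).comp hâm
        (fun x hx => Subgroup.mul_mem _ (Subgroup.mul_mem _ htQ hx) (Subgroup.inv_mem _ htQ))
    refine ⟨_, hb, Cfsg.Agent.Lib.Helper88Normal.image_eq_of_maps_to hb
      (fun x hx => totA_mem _ (Subgroup.mul_mem _ (Subgroup.mul_mem _ htQ hx)
        (Subgroup.inv_mem _ htQ))), fun x hx => ?_, fun c hc => ?_⟩
    · show totA (â : MulAut ↥(T ⊔ centralizerIn S T)) (t * x * t⁻¹) = a x
      rw [← hαa ⟨x, hx⟩, MulAut.mul_apply, ← hâT, htβ]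
    · show c⁻¹ * totA (â : MulAut ↥(T ⊔ centralizerIn S T)) (t * c * t⁻¹) ∈ _
      obtain ⟨hcS, hcc⟩ := mem_centralizerIn.1 hc
      have hcQ : c ∈ T ⊔ centralizerIn S T := Subgroup.mem_sup_right hc
      have h1 : t * c * t⁻¹ = c := by rw [hcc t ht, mul_inv_cancel_right]
      rw [h1]
      refine ⟨?_, ?_⟩
      · rw [totA_of_mem _ hcQ]
        exact hidx.2.1 (mem_hyperfocal hQS hâ ⟨c, hcQ⟩)
      · show c⁻¹ * totA (â : MulAut ↥(T ⊔ centralizerIn S T)) c ∈ Subgroup.centralizer (T : Set Ω)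
        rw [Subgroup.mem_centralizer_iff]
        intro y hy
        have hy' : y ∈ T := hy
        have hâTim := image_of_stronglyClosed hT hâm le_sup_left
        obtain ⟨z, hz, rfl⟩ := IsMap.exists_of_mem_image hâTim hy'
        have h2 : totA (â : MulAut ↥(T ⊔ centralizerIn S T)) z
            * totA (â : MulAut ↥(T ⊔ centralizerIn S T)) c
            = totA (â : MulAut ↥(T ⊔ centralizerIn S T)) c
              * totA (â : MulAut ↥(T ⊔ centralizerIn S T)) z := by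
          rw [← hâm.map_mul (Subgroup.mem_sup_left hz) hcQ, hcc z hz,
            hâm.map_mul hcQ (Subgroup.mem_sup_left hz)]
        have h3 : totA (â : MulAut ↥(T ⊔ centralizerIn S T)) z * c⁻¹
            = c⁻¹ * totA (â : MulAut ↥(T ⊔ centralizerIn S T)) z := by
          have := hcc _ hy'
          rw [eq_inv_mul_iff_mul_eq, ← mul_assoc, ← this, mul_inv_cancel_right]
        rw [← mul_assoc, h3, mul_assoc, h2, mul_assoc]

end Cfsg.Agent.Lib.Helper86PPowerN
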