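import Mathlib
import Cfsg.Agent.Lib.Helper86Sub
import Cfsg.Agent.Lib.Helper87NormSys
import Cfsg.Agent.Lib.Helper89Fusion2
import Cfsg.Agent.Lib.Helper86PPowerN

/-! # Definitions for the proof of the saturation criterion S5110 (BCGLO1, Theorem 2.2) -/

set_option autoImplicit false

namespace Cfsg.Agent.Lib.Helper89Sat0

open Cfsg Cfsg.FusionSystem Cfsg.Agent.Lib.Helper87Fusion Cfsg.Agent.Lib.Helper87Mk
  Cfsg.Agent.Lib.Helper87NormSys

variable {Ω : Type*} [Group Ω] {S : Subgroup Ω}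

/-- `Q` has a fully automized receptive conjugate. -/
def Good (F : FusionSystem S) (p : ℕ) (Q : Subgroup Ω) : Prop :=
  ∃ Q' : Subgroup Ω, F.IsConj Q Q' ∧ F.IsFullyAutomized p Q' ∧ F.IsReceptive Q'

/-- the normalizer system `N_F(P)` over `N_S(P)` (no saturation needed). -/
def nsys (F : FusionSystem S) (P : Subgroup Ω) (hP : P ≤ S) : FusionSystem (normalizerIn S P) :=
  (normData F P hP).toFusion

/-- the inductive situation of S5110: hypotheses of the theorem, and all subgroups of order `> n` are good. -/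
structure Ctx (F : FusionSystem S) (p : ℕ) (ℋ : Set (Subgroup Ω)) (n : ℕ) : Prop where
  conj : ∀ P ∈ ℋ, ∀ Q, F.IsConj P Q → Q ∈ ℋ
  sat : ∀ P ∈ ℋ, Good F p P
  gen : ∀ E : FusionSystem S, (∀ P ∈ ℋ, F.Hom P ⊆ E.Hom P) → F ≤ E
  star : ∀ P : Subgroup Ω, F.IsCentric P → P ∉ ℋ → ∃ Q, F.IsConj P Q ∧
    ¬ (autInducedBy S Q ⊓ (pCore p ↥(F.autGroup Q)).map (F.autGroup Q).subtype ≤ Inn Q)
  top : S ∈ ℋ
  good : ∀ Q : Subgroup Ω, Q ≤ S → n < Nat.card Q → Good F p Q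

/-- `Pm` receives all normalizers of its conjugates. -/
def Recv (F : FusionSystem S) (Pm : Subgroup Ω) : Prop :=
  ∀ P : Subgroup Ω, F.IsConj P Pm →
    ∃ ν : Ω → Ω, IsMap F (normalizerIn S P) ν ∧ ν '' (P : Set Ω) = (Pm : Set Ω)

/-- `O_p(Aut_E(P))` as a subgroup of `Aut(P)`. -/
def opAut {N : Subgroup Ω} (E : FusionSystem N) (p : ℕ) (P : Subgroup Ω) : Subgroup (MulAut P) :=
  (pCore p ↥(E.autGroup P)).map (E.autGroup P).subtype

/-- the abstract situation of step 2: `E` a fusion system over `N`, `P` invariant under all maps,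
all strictly larger subgroups good, `Aut_E(P)` generated by restrictions from strictly larger subgroups. -/
structure NCtx {N : Subgroup Ω} (E : FusionSystem N) (p : ℕ) (P : Subgroup Ω) : Prop where
  le : P ≤ N
  inv : ∀ (R : Subgroup Ω) (f : Ω → Ω), P ≤ R → IsMap E R f → f '' (P : Set Ω) = (P : Set Ω)
  src : ∀ (R : Subgroup Ω) (f : Ω → Ω), IsMap E R f → f '' (R : Set Ω) = (P : Set Ω) → R = P
  good : ∀ R : Subgroup Ω, P < R → R ≤ N → Good E p R
  gen : ∀ Γ₁ : Subgroup (MulAut P),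
    (∀ (R : Subgroup Ω) (f : Ω → Ω) (α : MulAut P), P < R → IsMap E R f →
      (∀ x : P, ((α x : P) : Ω) = f x) → α ∈ Γ₁) → E.autGroup P ≤ Γ₁

/-- `H` is the subgroup `P̂ = {x ∈ N : c_x|_P ∈ O_p(Aut_E(P))}`. -/
def IsHat {N : Subgroup Ω} (E : FusionSystem N) (p : ℕ) (P H : Subgroup Ω) : Prop :=
  ∀ x : Ω, x ∈ H ↔ x ∈ N ∧ ∃ α ∈ opAut E p P, ∀ y : P, ((α y : P) : Ω) = x * y * x⁻¹

/-- `f|_P` is the restriction of an `E`-map on `H`. -/
def Ext {N : Subgroup Ω} (E : FusionSystem N) (P H : Subgroup Ω) (f : Ω → Ω) : Prop :=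
  ∃ g : Ω → Ω, IsMap E H g ∧ ∀ x ∈ P, g x = f x

end Cfsg.Agent.Lib.Helper89Sat0
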