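import Mathlib
import Cfsg.Agent.Lib.Helper89Sat0

set_option autoImplicit false

namespace Cfsg.Agent.Lib.H89SatGen

open Cfsg Cfsg.FusionSystem Cfsg.Agent.Lib.Helper87Fusion Cfsg.Agent.Lib.Helper86Group
  Cfsg.Agent.Lib.Helper86Fusion Cfsg.Agent.Lib.Helper86Fusion2 Cfsg.Agent.Lib.Helper86Fusion3
  Cfsg.Agent.Lib.Helper87Fusion2 Cfsg.Agent.Lib.Helper87Mk Cfsg.Agent.Lib.Helper87NormSys
  Cfsg.Agent.Lib.Helper89Sat0

variable {Ω : Type*} [Group Ω] {S : Subgroup Ω}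

/-- GENERATION AS AN INDUCTION PRINCIPLE.  Every `F`-map whose source `P` has order `n` and is not in `ℋ` is a composite of
(inverses of) restrictions of `F`-maps with strictly larger source.
Proof: `E := Helper86Sub.subsystem F C'` with `C' P f := Nat.card P = n → P ∉ ℋ → C P f`.
* hconj: `P ≠ S` as `S ∈ ℋ` (`h.top`), so `P < S`, use `hbase` with `R = S`, `f = c_g`.
* hcomp (`f(P) ⊆ Q`): `Q₁ := f(P)` has order `n` and is not in `ℋ` (`h.conj`, `isConj_symm`); if `Q₁ = Q` use `C' Q g`, if `Q₁ < Q` use `hbase`; then `hcomp`.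
* hinv: `P ∉ ℋ`, `|P| = n` follow from the same for `Q`.
`E` contains `F.Hom P` for `P ∈ ℋ` (vacuous), so `F ≤ E` by `h.gen`; read off with `isMap_subsystem_iff`. -/
theorem gen_induction [Finite S] {F : FusionSystem S} {p : ℕ} {ℋ : Set (Subgroup Ω)} {n : ℕ}
    (h : Ctx F p ℋ n) (C : Subgroup Ω → (Ω → Ω) → Prop)
    (hcongr : ∀ (P : Subgroup Ω) (f g : Ω → Ω), (∀ x ∈ P, f x = g x) → C P f → C P g)
    (hcomp : ∀ (P Q : Subgroup Ω) (f g : Ω → Ω), Nat.card P = n → P ∉ ℋ → IsMap F P f →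
      f '' (P : Set Ω) = (Q : Set Ω) → IsMap F Q g → C P f → C Q g → C P (fun x => g (f x)))
    (hinv : ∀ (P Q : Subgroup Ω) (f g : Ω → Ω), Nat.card P = n → P ∉ ℋ → IsMap F P f →
      f '' (P : Set Ω) = (Q : Set Ω) → IsMap F Q g → (∀ x ∈ P, g (f x) = x) → C P f → C Q g)
    (hbase : ∀ (P R : Subgroup Ω) (f : Ω → Ω), Nat.card P = n → P ∉ ℋ → P < R → IsMap F R f → C P f)
    {P : Subgroup Ω} {f : Ω → Ω} (hP : Nat.card P = n) (hPℋ : P ∉ ℋ) (hf : IsMap F P f) : C P f := by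
  classical
  set C' : Subgroup Ω → (Ω → Ω) → Prop := fun P f => Nat.card P = n → P ∉ ℋ → C P f with hC'
  have hcongr' : ∀ (P : Subgroup Ω) (f g : Ω → Ω), (∀ x ∈ P, f x = g x) → C' P f → C' P g :=
    fun P f g hfg hc h1 h2 => hcongr P f g hfg (hc h1 h2)
  have hconj' : ∀ (P : Subgroup Ω) (g : Ω), P ≤ S → g ∈ S → C' P (fun x => g * x * g⁻¹) := by
    intro P g hPS hg h1 h2
    have hne : P ≠ S := by
      rintro rfl
      exact h2 h.top
    exact hbase P S _ h1 h2 (lt_of_le_of_ne hPS hne) (isMap_conj F le_rfl hg)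
  have hcomp' : ∀ (P Q : Subgroup Ω) (f g : Ω → Ω), IsMap F P f → IsMap F Q g →
      (∀ x ∈ P, f x ∈ Q) → C' P f → C' Q g → C' P (fun x => g (f x)) := by
    intro P Q f g hf hg hfQ hcf hcg h1 h2
    obtain ⟨Q₁, hQ₁⟩ := hf.exists_image
    have hQ₁Q : Q₁ ≤ Q := by
      intro y hy
      obtain ⟨x, hx, rfl⟩ := IsMap.exists_of_mem_image hQ₁ hy
      exact hfQ x hx
    have hcard : Nat.card Q₁ = n := by rw [hf.card_image hQ₁, h1]
    have hconjPQ : F.IsConj P Q₁ := isConj_iff.2 ⟨f, hf, hQ₁⟩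
    have hQ₁ℋ : Q₁ ∉ ℋ := fun hmem => h2 (h.conj Q₁ hmem P (isConj_symm hconjPQ))
    have hgQ₁ : IsMap F Q₁ g := hg.restrict hQ₁Q
    have hCg : C Q₁ g := by
      rcases eq_or_lt_of_le hQ₁Q with heq | hlt
      · subst heq
        exact hcg hcard hQ₁ℋ
      · exact hbase Q₁ Q g hcard hQ₁ℋ hlt hg
    exact hcomp P Q₁ f g h1 h2 hf hQ₁ hgQ₁ (hcf h1 h2) hCg
  have hinv' : ∀ (P Q : Subgroup Ω) (f g : Ω → Ω), IsMap F P f → f '' (P : Set Ω) = (Q : Set Ω) →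
      IsMap F Q g → (∀ x ∈ P, g (f x) = x) → C' P f → C' Q g := by
    intro P Q f g hf hfQ hg hgf hcf h1 h2
    have hcard : Nat.card P = n := by rw [← hf.card_image hfQ, h1]
    have hconjPQ : F.IsConj P Q := isConj_iff.2 ⟨f, hf, hfQ⟩
    have hPℋ' : P ∉ ℋ := fun hmem => h2 (h.conj P hmem Q hconjPQ)
    exact hinv P Q f g hcard hPℋ' hf hfQ hg hgf (hcf hcard hPℋ')
  have hle : F ≤ Cfsg.Agent.Lib.Helper86Sub.subsystem F C' hcongr' hconj' hcomp' hinv' := by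
    apply h.gen
    intro P hPmem φ hφ
    exact ⟨hφ, fun _ h2 => absurd hPmem h2⟩
  obtain ⟨φ, hφ, hφf⟩ := hf
  have h1 : IsMap (Cfsg.Agent.Lib.Helper86Sub.subsystem F C' hcongr' hconj' hcomp' hinv') P f :=
    ⟨φ, hle P hφ, hφf⟩
  exact ((Cfsg.Agent.Lib.Helper86Sub.isMap_subsystem_iff F C' hcongr' hconj' hcomp' hinv').1 h1).2
    hP hPℋ

end Cfsg.Agent.Lib.H89SatGen
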