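import Mathlib
import Cfsg.Agent.Lib.Helper89Sat0

set_option autoImplicit false

namespace Cfsg.Agent.Lib.H89SatNsys

open Cfsg Cfsg.FusionSystem Cfsg.Agent.Lib.Helper87Fusion Cfsg.Agent.Lib.Helper86Group
  Cfsg.Agent.Lib.Helper86Fusion Cfsg.Agent.Lib.Helper86Fusion2 Cfsg.Agent.Lib.Helper86Fusion3
  Cfsg.Agent.Lib.Helper87Fusion2 Cfsg.Agent.Lib.Helper87Mk Cfsg.Agent.Lib.Helper87NormSys
  Cfsg.Agent.Lib.Helper89Sat0

variable {Ω : Type*} [Group Ω] {S : Subgroup Ω}

/-! API of the normalizer system `nsys F P hP` (= `(normData F P hP).toFusion`, see Lib/Helper87NormSys, Lib/Helper87Mk.isMap_toFusion). -/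

theorem isMap_nsys {F : FusionSystem S} {P R : Subgroup Ω} (hP : P ≤ S) {f : Ω → Ω} :
    IsMap (nsys F P hP) R f ↔ NMap F P R f := isMap_toFusion _

/-- images of normalizing elements normalize the image. -/
theorem map_mem_normalizerIn {F : FusionSystem S} {P P' R : Subgroup Ω} {f : Ω → Ω} (hf : IsMap F R f)
    (hPR : P ≤ R) (hP' : f '' (P : Set Ω) = (P' : Set Ω)) {x : Ω} (hx : x ∈ R)
    (hxN : x ∈ normalizerIn S P) : f x ∈ normalizerIn S P' := by
  obtain ⟨hxS, hxP⟩ := mem_normalizerIn.1 hxN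
  rw [mem_normalizerIn]
  refine ⟨hf.mem hx, fun y => ⟨fun hy => ?_, fun hy => ?_⟩⟩
  · obtain ⟨u, hu, rfl⟩ := IsMap.exists_of_mem_image hP' hy
    rw [← hf.map_conj hx (hPR hu)]
    exact IsMap.mem_image hP' ((hxP u).1 hu)
  · obtain ⟨w, hw, hwy⟩ := IsMap.exists_of_mem_image hP' hy
    have hu : x⁻¹ * w * x ∈ P := by
      rw [hxP]
      have : x * (x⁻¹ * w * x) * x⁻¹ = w := by group
      rw [this]
      exact hw
    have h1 := hf.map_conj hx (hPR hu)
    have h2 : x * (x⁻¹ * w * x) * x⁻¹ = w := by group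
    rw [h2, hwy] at h1
    have h3 : y = f (x⁻¹ * w * x) := by
      have := congrArg (fun t => (f x)⁻¹ * t * f x) h1
      simpa [mul_assoc] using this
    rw [h3]
    exact IsMap.mem_image hP' hu

/-- for `P ≤ R`: the maps of `N_F(P)` on `R` are the `F`-maps on `R ≤ N_S(P)` with `f(P) = P`. -/
theorem isMap_nsys_iff {F : FusionSystem S} {P R : Subgroup Ω} (hP : P ≤ S) (hPR : P ≤ R) {f : Ω → Ω} :
    IsMap (nsys F P hP) R f ↔
      IsMap F R f ∧ R ≤ normalizerIn S P ∧ f '' (P : Set Ω) = (P : Set Ω) := by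
  rw [isMap_nsys]
  constructor
  · rintro ⟨h1, h2, h3, f', h4, h5, h6⟩
    refine ⟨h1, h2, ?_⟩
    exact ((image_congr (fun x hx => h5 x (hPR hx))).symm).trans h6
  · rintro ⟨h1, h2, h3⟩
    refine ⟨h1, h2, fun x hx => map_mem_normalizerIn h1 hPR h3 hx (h2 hx), f, ?_, fun _ _ => rfl, h3⟩
    rw [sup_eq_left.mpr hPR]
    exact h1

theorem isMap_of_nsys {F : FusionSystem S} {P R : Subgroup Ω} (hP : P ≤ S) {f : Ω → Ω}
    (h : IsMap (nsys F P hP) R f) : IsMap F R f := ((isMap_nsys hP).1 h).1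

/-- a map of `N_F(P)` with image `R'` containing `P` has source containing `P` (the extension to `R ⊔ P` is injective and maps `P` onto `P ≤ f(R)`). -/
theorem le_of_nsys_image {F : FusionSystem S} {P R R' : Subgroup Ω} (hP : P ≤ S) {f : Ω → Ω}
    (hf : IsMap (nsys F P hP) R f) (hR : f '' (R : Set Ω) = (R' : Set Ω)) (hPR' : P ≤ R') : P ≤ R := by
  obtain ⟨h1, h2, h3, f', h4, h5, h6⟩ := (isMap_nsys hP).1 hf
  intro y hy
  have hy' : f' y ∈ R' := hPR' (IsMap.mem_image h6 hy)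
  obtain ⟨x, hx, hxy⟩ := IsMap.exists_of_mem_image hR hy'
  rw [← h5 x hx] at hxy
  have := h4.inj ((le_sup_left : R ≤ R ⊔ P) hx) ((le_sup_right : P ≤ R ⊔ P) hy) hxy
  rw [← this]
  exact hx

theorem nsys_src [Finite S] {F : FusionSystem S} {P R : Subgroup Ω} (hP : P ≤ S) {f : Ω → Ω}
    (hf : IsMap (nsys F P hP) R f) (hR : f '' (R : Set Ω) = (P : Set Ω)) : R = P := by
  have hle : P ≤ R := le_of_nsys_image hP hf hR le_rfl
  have hc := IsMap.card_image (isMap_of_nsys hP hf) hR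
  have hRS : R ≤ S := (isMap_of_nsys hP hf).le
  haveI : Finite R := Finite.of_injective (Subgroup.inclusion hRS) (Subgroup.inclusion_injective hRS)
  exact (Subgroup.eq_of_le_of_card_ge hle hc.symm.le).symm

theorem autGroup_nsys_self (F : FusionSystem S) {P : Subgroup Ω} (hP : P ≤ S) :
    (nsys F P hP).autGroup P = F.autGroup P := by
  ext α
  have hf : ∀ x : P, ((α x : P) : Ω) = tot (P.subtype.comp α.toMonoidHom) x := fun x =>
    (tot_apply (P.subtype.comp α.toMonoidHom) x).symm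
  rw [mem_autGroup_iff_isMap (nsys F P hP) (le_normalizerIn hP) α hf,
    mem_autGroup_iff_isMap F hP α hf, isMap_nsys_iff hP le_rfl]
  constructor
  · exact fun h => h.1
  · intro h
    refine ⟨h, le_normalizerIn hP, ?_⟩
    ext y
    constructor
    · rintro ⟨x, hx, rfl⟩
      rw [← hf ⟨x, hx⟩]
      exact (α ⟨x, hx⟩).2
    · intro hy
      refine ⟨(α.symm ⟨y, hy⟩ : P), (α.symm ⟨y, hy⟩).2, ?_⟩
      rw [← hf]
      simp

theorem autInducedBy_normalizerIn_self (S P : Subgroup Ω) :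
    autInducedBy (normalizerIn S P) P = autInducedBy S P := by
  apply le_antisymm (autInducedBy_mono (normalizerIn_le S P) P)
  intro α hα
  obtain ⟨g, hg, hga⟩ := (mem_autInducedBy_iff S P α).1 hα
  refine (mem_autInducedBy_iff _ P α).2 ⟨g, ?_, hga⟩
  rw [mem_normalizerIn]
  refine ⟨hg, fun y => ⟨fun hy => ?_, fun hy => ?_⟩⟩
  · rw [← hga ⟨y, hy⟩]
    exact (α ⟨y, hy⟩).2
  · have h1 := hga (α.symm ⟨_, hy⟩)
    rw [MulEquiv.apply_symm_apply] at h1
    have h2 : y = ((α.symm ⟨_, hy⟩ : P) : Ω) := by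
      have := congrArg (fun t => g⁻¹ * t * g) h1
      simpa [mul_assoc] using this
    rw [h2]
    exact (α.symm ⟨_, hy⟩).2

theorem opAut_nsys_self (F : FusionSystem S) (p : ℕ) {P : Subgroup Ω} (hP : P ≤ S) :
    opAut (nsys F P hP) p P = (pCore p ↥(F.autGroup P)).map (F.autGroup P).subtype := by
  unfold opAut
  rw [autGroup_nsys_self]

/-- `Aut_{N_F(P)}(R)` is the stabilizer of `P` in `Aut_F(R)`. -/
theorem mem_autGroup_nsys_iff [Finite S] (F : FusionSystem S) {P R : Subgroup Ω} (hP : P ≤ S) (hPR : P ≤ R)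
    (hRN : R ≤ normalizerIn S P) (α : MulAut R) :
    α ∈ (nsys F P hP).autGroup R ↔ α ∈ F.autGroup R ∧ ∀ x : R, (x : Ω) ∈ P → ((α x : R) : Ω) ∈ P := by
  have hRS : R ≤ S := hRN.trans (normalizerIn_le S P)
  have hf : ∀ x : R, ((α x : R) : Ω) = tot (R.subtype.comp α.toMonoidHom) x := fun x =>
    (tot_apply (R.subtype.comp α.toMonoidHom) x).symm
  rw [mem_autGroup_iff_isMap (nsys F P hP) hRN α hf, mem_autGroup_iff_isMap F hRS α hf,
    isMap_nsys_iff hP hPR]
  constructor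
  · rintro ⟨h1, -, h3⟩
    refine ⟨h1, fun x hx => ?_⟩
    rw [hf]
    exact IsMap.mem_image h3 hx
  · rintro ⟨h1, h2⟩
    refine ⟨h1, hRN, ?_⟩
    haveI : Finite P := Finite.of_injective (Subgroup.inclusion hP) (Subgroup.inclusion_injective hP)
    have hsub : tot (R.subtype.comp α.toMonoidHom) '' (P : Set Ω) ⊆ (P : Set Ω) := by
      rintro _ ⟨x, hx, rfl⟩
      rw [← hf ⟨x, hPR hx⟩]
      exact h2 ⟨x, hPR hx⟩ hx
    have hfin : (P : Set Ω).Finite := Set.toFinite _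
    apply Set.eq_of_subset_of_ncard_le hsub _ hfin
    rw [Set.ncard_image_of_injOn]
    intro x hx y hy hxy
    exact h1.inj (hPR hx) (hPR hy) hxy

end Cfsg.Agent.Lib.H89SatNsys
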