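import Mathlib
import Cfsg.Agent.Lib.Helper89Sat0
import Cfsg.Agent.Lib.H89SatNsys
import Cfsg.Agent.Lib.H89SatGen

set_option autoImplicit false

namespace Cfsg.Agent.Lib.H89SatAGen

open Cfsg Cfsg.FusionSystem Cfsg.Agent.Lib.Helper87Fusion Cfsg.Agent.Lib.Helper86Group
  Cfsg.Agent.Lib.Helper86Fusion Cfsg.Agent.Lib.Helper86Fusion2 Cfsg.Agent.Lib.Helper86Fusion3
  Cfsg.Agent.Lib.Helper87Fusion2 Cfsg.Agent.Lib.Helper87Mk Cfsg.Agent.Lib.Helper87NormSys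
  Cfsg.Agent.Lib.Helper89Sat0
  Cfsg.Agent.Lib.H89SatNsys Cfsg.Agent.Lib.H89SatGen

variable {Ω : Type*} [Group Ω] {S : Subgroup Ω}

/-- a left inverse on `P` of an `F`-map is an `F`-map on the image. -/
theorem inv_facts {F : FusionSystem S} {M P Pm : Subgroup Ω} {ν ν' : Ω → Ω} (hν : IsMap F M ν)
    (hPM : P ≤ M) (hνP : ν '' (P : Set Ω) = (Pm : Set Ω)) (hν' : ∀ x ∈ P, ν' (ν x) = x) :
    IsMap F Pm ν' ∧ (∀ y ∈ Pm, ν (ν' y) = y) ∧ ν' '' (Pm : Set Ω) = (P : Set Ω) := by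
  obtain ⟨νi, hνi, h1, h2, h3⟩ := (hν.restrict hPM).inv hνP
  have e : ∀ y ∈ Pm, νi y = ν' y := by
    intro y hy
    obtain ⟨x, hx, rfl⟩ := IsMap.exists_of_mem_image hνP hy
    rw [h1 x hx, hν' x hx]
  refine ⟨hνi.congr e, fun y hy => by rw [← e y hy]; exact h2 y hy, ?_⟩
  rw [← h3]
  exact (Set.image_congr e).symm

/-- the induction predicate. -/
def CC (F : FusionSystem S) (Pm : Subgroup Ω) (Γ₁ : Subgroup (MulAut Pm)) (P₁ : Subgroup Ω)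
    (f : Ω → Ω) : Prop :=
  ∀ (P₂ : Subgroup Ω) (ν₁ ν₁' ν₂ : Ω → Ω) (α : MulAut Pm), f '' (P₁ : Set Ω) = (P₂ : Set Ω) →
    IsMap F (normalizerIn S P₁) ν₁ → ν₁ '' (P₁ : Set Ω) = (Pm : Set Ω) →
    (∀ x ∈ P₁, ν₁' (ν₁ x) = x) →
    IsMap F (normalizerIn S P₂) ν₂ → ν₂ '' (P₂ : Set Ω) = (Pm : Set Ω) →
    (∀ x : Pm, ((α x : Pm) : Ω) = ν₂ (f (ν₁' x))) → α ∈ Γ₁

theorem cc_congr {F : FusionSystem S} {Pm : Subgroup Ω} {Γ₁ : Subgroup (MulAut Pm)}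
    (P : Subgroup Ω) (f g : Ω → Ω) (hfg : ∀ x ∈ P, f x = g x) (hf : CC F Pm Γ₁ P f) :
    CC F Pm Γ₁ P g := by
  intro P₂ ν₁ ν₁' ν₂ α hgP hν₁ hν₁P hν₁' hν₂ hν₂P hα
  refine hf P₂ ν₁ ν₁' ν₂ α ((Set.image_congr hfg).trans hgP) hν₁ hν₁P hν₁' hν₂ hν₂P
    (fun x => ?_)
  obtain ⟨y, hy, hyx⟩ := IsMap.exists_of_mem_image hν₁P x.2
  rw [hα x, ← hyx, hν₁' y hy, hfg y hy]

theorem cc_comp {F : FusionSystem S} {Pm : Subgroup Ω} {Γ₁ : Subgroup (MulAut Pm)}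
    (hrecv : Recv F Pm) (P Q : Subgroup Ω) (f g : Ω → Ω) (hf : IsMap F P f)
    (hfQ : f '' (P : Set Ω) = (Q : Set Ω)) (hg : IsMap F Q g) (hCf : CC F Pm Γ₁ P f)
    (hCg : CC F Pm Γ₁ Q g) : CC F Pm Γ₁ P (fun x => g (f x)) := by
  intro P₂ ν₁ ν₁' ν₂ α hgfP hν₁ hν₁P hν₁' hν₂ hν₂P hα
  have hPS : P ≤ S := hf.le
  have hQS : Q ≤ S := hg.le
  obtain ⟨hi1, hi2, hi3⟩ := inv_facts hν₁ (le_normalizerIn hPS) hν₁P hν₁'
  have hgQ : g '' (Q : Set Ω) = (P₂ : Set Ω) := by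
    rw [← hfQ, Set.image_image]; exact hgfP
  have hP₂S : P₂ ≤ S := hg.image_le hgQ
  have hQPm : F.IsConj Q Pm :=
    isConj_trans (isConj_symm (isConj_iff.2 ⟨f, hf, hfQ⟩))
      (isConj_iff.2 ⟨ν₁, hν₁.restrict (le_normalizerIn hPS), hν₁P⟩)
  obtain ⟨ν, hν, hνQ⟩ := hrecv Q hQPm
  obtain ⟨ν', hν', hν'1, hν'2, hν'3⟩ := (hν.restrict (le_normalizerIn hQS)).inv hνQ
  have hm1 : IsMap F Pm (fun x => ν (f (ν₁' x))) :=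
    (hi1.comp hf (fun x hx => IsMap.mem_image hi3 hx)).comp (hν.restrict (le_normalizerIn hQS))
      (fun x hx => IsMap.mem_image hfQ (IsMap.mem_image hi3 hx))
  have hm1i : (fun x => ν (f (ν₁' x))) '' (Pm : Set Ω) = (Pm : Set Ω) := by
    have e1 : (fun x => ν (f (ν₁' x))) '' (Pm : Set Ω) = ν '' (f '' (ν₁' '' (Pm : Set Ω))) := by
      rw [Set.image_image, Set.image_image]
    rw [e1, hi3, hfQ, hνQ]
  have hm2 : IsMap F Pm (fun x => ν₂ (g (ν' x))) :=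
    (hν'.comp hg (fun x hx => IsMap.mem_image hν'3 hx)).comp
      (hν₂.restrict (le_normalizerIn hP₂S))
      (fun x hx => IsMap.mem_image hgQ (IsMap.mem_image hν'3 hx))
  have hm2i : (fun x => ν₂ (g (ν' x))) '' (Pm : Set Ω) = (Pm : Set Ω) := by
    have e1 : (fun x => ν₂ (g (ν' x))) '' (Pm : Set Ω) = ν₂ '' (g '' (ν' '' (Pm : Set Ω))) := by
      rw [Set.image_image, Set.image_image]
    rw [e1, hν'3, hgQ, hν₂P]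
  obtain ⟨α₁, -, hα₁⟩ := hm1.exists_aut hm1i
  obtain ⟨α₂, -, hα₂⟩ := hm2.exists_aut hm2i
  have h1 : α₁ ∈ Γ₁ := hCf Q ν₁ ν₁' ν α₁ hfQ hν₁ hν₁P hν₁' hν hνQ hα₁
  have h2 : α₂ ∈ Γ₁ := hCg P₂ ν ν' ν₂ α₂ hgQ hν hνQ hν'1 hν₂ hν₂P hα₂
  have e : α = α₂ * α₁ := by
    ext x
    rw [MulAut.mul_apply, hα₂, hα₁, hα,
      hν'1 _ (IsMap.mem_image hfQ (IsMap.mem_image hi3 x.2))]
  rw [e]
  exact Γ₁.mul_mem h2 h1

theorem cc_inv {F : FusionSystem S} {Pm : Subgroup Ω} {Γ₁ : Subgroup (MulAut Pm)}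
    (P Q : Subgroup Ω) (f g : Ω → Ω) (hf : IsMap F P f)
    (hfQ : f '' (P : Set Ω) = (Q : Set Ω)) (hg : IsMap F Q g) (hgf : ∀ x ∈ P, g (f x) = x)
    (hCf : CC F Pm Γ₁ P f) : CC F Pm Γ₁ Q g := by
  intro P₂ ν₁ ν₁' ν₂ α hgQ hν₁ hν₁Q hν₁' hν₂ hν₂P hα
  have hPS : P ≤ S := hf.le
  have hQS : Q ≤ S := hg.le
  have hP₂ : P₂ = P := by
    apply SetLike.coe_injective
    rw [← hgQ, ← hfQ, Set.image_image]
    ext x
    constructor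
    · rintro ⟨y, hy, rfl⟩
      show g (f y) ∈ (P : Set Ω)
      rw [hgf y hy]; exact hy
    · intro hx
      exact ⟨x, hx, hgf x hx⟩
  subst hP₂
  obtain ⟨hi1, hi2, hi3⟩ := inv_facts hν₁ (le_normalizerIn hQS) hν₁Q hν₁'
  obtain ⟨ν₂', hν₂', hν₂'1, hν₂'2, hν₂'3⟩ := (hν₂.restrict (le_normalizerIn hPS)).inv hν₂P
  have h1 : α⁻¹ ∈ Γ₁ := by
    refine hCf Q ν₂ ν₂' ν₁ α⁻¹ hfQ hν₂ hν₂P hν₂'1 hν₁ hν₁Q (fun x => ?_)
    obtain ⟨y, hy⟩ : ∃ y : Pm, y = α⁻¹ x := ⟨_, rfl⟩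
    have hx : x = α y := by rw [hy]; simp
    rw [← hy, hx, hα y]
    have hyQ : ν₁' y ∈ Q := IsMap.mem_image hi3 y.2
    obtain ⟨z, hz, hzy⟩ := IsMap.exists_of_mem_image hfQ hyQ
    rw [← hzy, hgf z hz, hν₂'1 z hz, hzy, hi2 y y.2]
  have := Γ₁.inv_mem h1
  rwa [inv_inv] at this

theorem cc_base [Finite S] {p : ℕ} [Fact p.Prime] (hS : IsPGroup p S) {F : FusionSystem S}
    {Pm : Subgroup Ω} (hPm : Pm ≤ S) {Γ₁ : Subgroup (MulAut Pm)}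
    (hΓ : ∀ (R : Subgroup Ω) (f : Ω → Ω) (α : MulAut Pm), Pm < R → IsMap (nsys F Pm hPm) R f →
        (∀ x : Pm, ((α x : Pm) : Ω) = f x) → α ∈ Γ₁)
    (P R : Subgroup Ω) (f : Ω → Ω) (hPR : P < R) (hf : IsMap F R f) : CC F Pm Γ₁ P f := by
  intro P₂ ν₁ ν₁' ν₂ α hfP hν₁ hν₁P hν₁' hν₂ hν₂P hα
  have hRS : R ≤ S := hf.le
  have hPS : P ≤ S := hPR.le.trans hRS
  have hfinR : Finite R := finite_of_le hRS
  obtain ⟨x₀, hx₀R, hx₀P, hx₀n⟩ := exists_normalizer_gt (hS.to_le hRS) hPR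
  obtain ⟨R₁, hR₁⟩ : ∃ R₁ : Subgroup Ω, R₁ = R ⊓ normalizerIn S P := ⟨_, rfl⟩
  have hR₁R : R₁ ≤ R := hR₁ ▸ inf_le_left
  have hR₁N : R₁ ≤ normalizerIn S P := hR₁ ▸ inf_le_right
  have hPR₁ : P ≤ R₁ := hR₁ ▸ le_inf hPR.le (le_normalizerIn hPS)
  have hx₀R₁ : x₀ ∈ R₁ := by
    rw [hR₁]; exact ⟨hx₀R, hRS hx₀R, hx₀n⟩
  have hν₁R₁ : IsMap F R₁ ν₁ := hν₁.restrict hR₁N
  obtain ⟨R₂, hR₂⟩ := hν₁R₁.exists_image
  obtain ⟨νi, hνi, hνi1, hνi2, hνi3⟩ := hν₁R₁.inv hR₂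
  have hPmR₂ : Pm ≤ R₂ := fun y hy => by
    obtain ⟨x, hx, rfl⟩ := IsMap.exists_of_mem_image hν₁P hy
    exact IsMap.mem_image hR₂ (hPR₁ hx)
  have hlt : Pm < R₂ := by
    refine lt_of_le_of_ne hPmR₂ (fun e => hx₀P ?_)
    have h1 : ν₁ x₀ ∈ Pm := by rw [e]; exact IsMap.mem_image hR₂ hx₀R₁
    obtain ⟨x, hx, hxx⟩ := IsMap.exists_of_mem_image hν₁P h1
    have := hν₁R₁.inj (hPR₁ hx) hx₀R₁ hxx
    rw [← this]; exact hx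
  have hθ : IsMap F R₂ (fun y => ν₂ (f (νi y))) :=
    (hνi.comp (hf.restrict hR₁R) (fun y hy => IsMap.mem_image hνi3 hy)).comp hν₂
      (fun y hy => by
        have hy1 : νi y ∈ R₁ := IsMap.mem_image hνi3 hy
        exact map_mem_normalizerIn hf hPR.le hfP (hR₁R hy1) (hR₁N hy1))
  have hR₂N : R₂ ≤ normalizerIn S Pm := fun y hy => by
    obtain ⟨x, hx, rfl⟩ := IsMap.exists_of_mem_image hR₂ hy
    exact map_mem_normalizerIn hν₁ (le_normalizerIn hPS) hν₁P (hR₁N hx) (hR₁N hx)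
  have hνiPm : ∀ y ∈ Pm, νi y = ν₁' y := by
    intro y hy
    obtain ⟨x, hx, rfl⟩ := IsMap.exists_of_mem_image hν₁P hy
    rw [hνi1 x (hPR₁ hx), hν₁' x hx]
  obtain ⟨hi1, hi2, hi3⟩ := inv_facts hν₁ (le_normalizerIn hPS) hν₁P hν₁'
  have hθPm : (fun y => ν₂ (f (νi y))) '' (Pm : Set Ω) = (Pm : Set Ω) := by
    have e1 : (fun y => ν₂ (f (νi y))) '' (Pm : Set Ω) = ν₂ '' (f '' (ν₁' '' (Pm : Set Ω))) := by
      rw [Set.image_image, Set.image_image]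
      exact Set.image_congr (fun y hy => by rw [hνiPm y hy])
    rw [e1, hi3, hfP, hν₂P]
  refine hΓ R₂ _ α hlt ((isMap_nsys_iff hPm hPmR₂).2 ⟨hθ, hR₂N, hθPm⟩) (fun x => ?_)
  rw [hα x, hνiPm x x.2]

/-- `Aut_F(Pm)` is generated by restrictions of maps of `N_F(Pm)` with source `> Pm`. -/
theorem aut_gen [Finite S] {p : ℕ} [Fact p.Prime] (hS : IsPGroup p S) {F : FusionSystem S}
    {ℋ : Set (Subgroup Ω)} {n : ℕ} (h : Ctx F p ℋ n) {Pm : Subgroup Ω} (hPm : Pm ≤ S)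
    (hcard : Nat.card Pm = n) (hPmℋ : Pm ∉ ℋ) (hrecv : Recv F Pm) :
    ∀ Γ₁ : Subgroup (MulAut Pm),
      (∀ (R : Subgroup Ω) (f : Ω → Ω) (α : MulAut Pm), Pm < R → IsMap (nsys F Pm hPm) R f →
        (∀ x : Pm, ((α x : Pm) : Ω) = f x) → α ∈ Γ₁) → (nsys F Pm hPm).autGroup Pm ≤ Γ₁ := by
  intro Γ₁ hΓ α hα
  rw [autGroup_nsys_self] at hα
  have hm : IsMap F Pm (totA α) := (mem_autGroup_iff_totA F hPm α).1 hα
  have hC : CC F Pm Γ₁ Pm (totA α) :=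
    gen_induction h (CC F Pm Γ₁) cc_congr
      (fun P Q f g _ _ hf hfQ hg hCf hCg => cc_comp hrecv P Q f g hf hfQ hg hCf hCg)
      (fun P Q f g _ _ hf hfQ hg hgf hCf => cc_inv P Q f g hf hfQ hg hgf hCf)
      (fun P R f _ _ hPR hf => cc_base hS hPm hΓ P R f hPR hf) hcard hPmℋ hm
  exact hC Pm (fun x => x) (fun x => x) (fun x => x) α (totA_image α)
    (isMap_id' F (normalizerIn_le S Pm)) (Set.image_id' _) (fun _ _ => rfl)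
    (isMap_id' F (normalizerIn_le S Pm)) (Set.image_id' _) (fun x => (totA_apply α x).symm)

end Cfsg.Agent.Lib.H89SatAGen
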