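import Mathlib
import Cfsg.Agent.Lib.Helper89Sat0
import Cfsg.Agent.Lib.H89SatNsys

set_option autoImplicit false

namespace Cfsg.Agent.Lib.H89SatBack

open Cfsg Cfsg.FusionSystem Cfsg.Agent.Lib.Helper87Fusion Cfsg.Agent.Lib.Helper86Group
  Cfsg.Agent.Lib.Helper86Fusion Cfsg.Agent.Lib.Helper86Fusion2 Cfsg.Agent.Lib.Helper86Fusion3
  Cfsg.Agent.Lib.Helper87Fusion2 Cfsg.Agent.Lib.Helper87Mk Cfsg.Agent.Lib.Helper87NormSys
  Cfsg.Agent.Lib.Helper89Sat0
  Cfsg.Agent.Lib.H89SatNsys

variable {Ω : Type*} [Group Ω] {S : Subgroup Ω}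

/-- from `N_F(Pm)` back to `F`. -/
theorem back [Finite S] {p : ℕ} [Fact p.Prime] (hS : IsPGroup p S) (F : FusionSystem S)
    {Pm : Subgroup Ω} (hPm : Pm ≤ S) (hrecv : Recv F Pm)
    (hfa : (nsys F Pm hPm).IsFullyAutomized p Pm) (hrec : (nsys F Pm hPm).IsReceptive Pm) :
    F.IsFullyAutomized p Pm ∧ F.IsReceptive Pm := by
  have hfin : Finite (normalizerIn S Pm) :=
    Finite.of_injective (Subgroup.inclusion (normalizerIn_le S Pm)) (Subgroup.inclusion_injective _)
  constructor
  · rw [fullyAutomized_iff_card F hPm]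
    have h1 := (fullyAutomized_iff_card (nsys F Pm hPm) (le_normalizerIn hPm)).1 hfa
    rw [autGroup_nsys_self F hPm, autInducedBy_normalizerIn_self S Pm] at h1
    exact h1
  · apply isReceptive_of hPm
    intro P' f hf hfQ M hM
    have hconj : F.IsConj P' Pm := isConj_iff.2 ⟨f, hf, hfQ⟩
    obtain ⟨ν, hν, hνP⟩ := hrecv P' hconj
    have hP'S : P' ≤ S := hf.le
    have hP'N : P' ≤ normalizerIn S P' := le_normalizerIn hP'S
    have hν' : IsMap F P' ν := hν.restrict hP'N
    obtain ⟨μ, hμ, hμν, hνμ, hμP⟩ := hν'.inv hνP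
    have hα : IsMap F Pm (fun y => f (μ y)) := hμ.comp hf (fun y hy => IsMap.mem_image hμP hy)
    have hαimg : (fun y => f (μ y)) '' (Pm : Set Ω) = (Pm : Set Ω) := by
      have : (fun y => f (μ y)) '' (Pm : Set Ω) = f '' (μ '' (Pm : Set Ω)) :=
        (Set.image_image f μ _).symm
      rw [this, hμP, hfQ]
    have hαE : IsMap (nsys F Pm hPm) Pm (fun y => f (μ y)) :=
      (isMap_nsys_iff hPm le_rfl).2 ⟨hα, le_normalizerIn hPm, hαimg⟩
    have hMle : M ≤ normalizerIn S P' := by
      intro g hg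
      obtain ⟨h1, h2, -⟩ := (hM g).1 hg
      exact ⟨h1, h2⟩
    obtain ⟨M', hM'⟩ := hν.exists_image_of_le hMle
    obtain ⟨αh, hαh, hαh'⟩ := isReceptive_extend (N := M') hrec hαE hαimg (by
      intro g' hg'
      obtain ⟨g, hg, rfl⟩ := IsMap.exists_of_mem_image hM' hg'
      have hgN : g ∈ normalizerIn S P' := hMle hg
      have hνg : ν g ∈ normalizerIn S Pm := map_mem_normalizerIn hν hP'N hνP hgN hgN
      obtain ⟨hgS, hgn, h, hhS, hh⟩ := (hM g).1 hg
      have hgn' := (mem_normalizerIn.1 hgN).2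
      refine ⟨hνg, hνg.2, h, ?_, ?_⟩
      · rw [mem_normalizerIn]
        refine ⟨hhS, fun x => ⟨fun hx => ?_, fun hx => ?_⟩⟩
        · obtain ⟨x', hx', rfl⟩ := IsMap.exists_of_mem_image hfQ hx
          rw [← hh x' hx']
          exact IsMap.mem_image hfQ ((hgn' x').1 hx')
        · obtain ⟨z, hz, hzx⟩ := IsMap.exists_of_mem_image hfQ hx
          have hx' : g⁻¹ * z * g ∈ P' := by
            rw [hgn']
            have : g * (g⁻¹ * z * g) * g⁻¹ = z := by group
            rw [this]; exact hz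
          have h3 := hh _ hx'
          have h4 : g * (g⁻¹ * z * g) * g⁻¹ = z := by group
          rw [h4, hzx] at h3
          have h5 : x = f (g⁻¹ * z * g) := by
            have := congrArg (fun w => h⁻¹ * w * h) h3
            have e1 : h⁻¹ * (h * x * h⁻¹) * h = x := by group
            have e2 : h⁻¹ * (h * f (g⁻¹ * z * g) * h⁻¹) * h = f (g⁻¹ * z * g) := by group
            rw [e1, e2] at this
            exact this
          rw [h5]
          exact IsMap.mem_image hfQ hx'
      · intro y hy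
        have hx : μ y ∈ P' := IsMap.mem_image hμP hy
        have hy' : ν (μ y) = y := hνμ y hy
        have h1 : ν g * y * (ν g)⁻¹ = ν (g * μ y * g⁻¹) := by
          rw [hν.map_conj hgN (hP'N hx), hy']
        show f (μ (ν g * y * (ν g)⁻¹)) = h * f (μ y) * h⁻¹
        rw [h1, hμν _ ((hgn' _).1 hx), hh _ hx])
    refine ⟨fun x => αh (ν x), (hν.restrict hMle).comp (isMap_of_nsys hPm hαh)
      (fun x hx => IsMap.mem_image hM' hx), fun x hx => ?_⟩
    show αh (ν x) = f x
    rw [hαh' _ (IsMap.mem_image hνP hx)]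
    show f (μ (ν x)) = f x
    rw [hμν x hx]

end Cfsg.Agent.Lib.H89SatBack
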