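import Mathlib
import Cfsg.Agent.Lib.Helper89Sat0

set_option autoImplicit false

namespace Cfsg.Agent.Lib.H89SatGrpB

open Cfsg Cfsg.FusionSystem Cfsg.Agent.Lib.Helper87Fusion Cfsg.Agent.Lib.Helper86Group
  Cfsg.Agent.Lib.Helper86Fusion Cfsg.Agent.Lib.Helper86Fusion2 Cfsg.Agent.Lib.Helper86Fusion3
  Cfsg.Agent.Lib.Helper87Fusion2 Cfsg.Agent.Lib.Helper87Mk Cfsg.Agent.Lib.Helper87NormSys
  Cfsg.Agent.Lib.Helper89Sat0

variable {Ω : Type*} [Group Ω] {S : Subgroup Ω}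

open scoped Pointwise

/-- a `p`-subgroup is conjugate into a given Sylow subgroup. -/
theorem exists_conj_le {A : Type*} [Group A] [Finite A] {p : ℕ} [Fact p.Prime]
    (Y : Sylow p A) (D : Subgroup A) (hD : IsPGroup p D) :
    ∃ l : A, ∀ d ∈ D, l * d * l⁻¹ ∈ Y := by
  obtain ⟨Q, hQ⟩ := hD.exists_le_sylow
  obtain ⟨l, hl⟩ := MulAction.exists_smul_eq A Q Y
  refine ⟨l, fun d hd => ?_⟩
  have h1 : l * d * l⁻¹ ∈ (l • Q : Sylow p A) := by
    rw [← SetLike.mem_coe, ← Sylow.coe_coe, Sylow.coe_subgroup_smul, SetLike.mem_coe]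
    have := Subgroup.smul_mem_pointwise_smul d (MulAut.conj l) (Q : Subgroup A) (hQ hd)
    simpa [MulAut.smul_def] using this
  rwa [hl] at h1

theorem sylow_ker_conj {A B : Type*} [Group A] [Finite A] [Group B] {p : ℕ} [Fact p.Prime]
    (Y : Sylow p A) (ρ : A →* B) (D : Subgroup A) (hD : IsPGroup p D)
    (hDY : ∀ d ∈ D, ∃ y ∈ Y, ρ d = ρ y) :
    ∃ κ : A, ρ κ = 1 ∧ ∀ d ∈ D, κ * d * κ⁻¹ ∈ Y := by
  set L : Subgroup A := ((Y : Subgroup A).map ρ).comap ρ with hL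
  have hYL : (Y : Subgroup A) ≤ L := Subgroup.le_comap_map ρ _
  have hDL : D ≤ L := by
    intro d hd
    obtain ⟨y, hy, e⟩ := hDY d hd
    exact ⟨y, hy, e.symm⟩
  have hD' : IsPGroup p (D.subgroupOf L) :=
    hD.comap_of_injective L.subtype Subtype.val_injective
  obtain ⟨l, hl⟩ := exists_conj_le (Y.subtype hYL) (D.subgroupOf L) hD'
  obtain ⟨y, hy, e⟩ := l.2
  refine ⟨y⁻¹ * l, by rw [map_mul, map_inv, e, inv_mul_cancel], fun d hd => ?_⟩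
  have h1 := hl ⟨d, hDL hd⟩ (Subgroup.mem_subgroupOf.mpr hd)
  have h2 : (l : A) * d * (l : A)⁻¹ ∈ (Y : Subgroup A) := by
    have : (l * ⟨d, hDL hd⟩ * l⁻¹ : L) ∈ (Y : Subgroup A).subgroupOf L := h1
    simpa [Subgroup.mem_subgroupOf] using this
  have h3 : y⁻¹ * (l : A) * d * (y⁻¹ * (l : A))⁻¹ = y⁻¹ * ((l : A) * d * (l : A)⁻¹) * y := by
    group
  rw [h3]
  exact (Y : Subgroup A).mul_mem ((Y : Subgroup A).mul_mem ((Y : Subgroup A).inv_mem hy) h2) hy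

end Cfsg.Agent.Lib.H89SatGrpB
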