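import Mathlib
import Cfsg.Agent.Lib.Helper89Sat0
import Cfsg.Agent.Lib.H89SatGrpB

set_option autoImplicit false

namespace Cfsg.Agent.Lib.H89SatGrpC

open Cfsg Cfsg.FusionSystem Cfsg.Agent.Lib.Helper87Fusion Cfsg.Agent.Lib.Helper86Group
  Cfsg.Agent.Lib.Helper86Fusion Cfsg.Agent.Lib.Helper86Fusion2 Cfsg.Agent.Lib.Helper86Fusion3
  Cfsg.Agent.Lib.Helper87Fusion2 Cfsg.Agent.Lib.Helper87Mk Cfsg.Agent.Lib.Helper87NormSys
  Cfsg.Agent.Lib.Helper89Sat0

variable {Ω : Type*} [Group Ω] {S : Subgroup Ω}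

theorem sylow_inf_conj {A : Type*} [Group A] [Finite A] {p : ℕ} [Fact p.Prime]
    (Y : Sylow p A) (B : Subgroup A) :
    ∃ γ : A, Nat.card ((Y : Subgroup A) ⊓ B.map (MulAut.conj γ).toMonoidHom : Subgroup A)
      = p ^ (Nat.card B).factorization p := by
  have hp : p.Prime := Fact.out
  obtain ⟨Z⟩ : Nonempty (Sylow p B) := inferInstance
  have hZc : Nat.card Z = p ^ (Nat.card B).factorization p := Z.card_eq_multiplicity
  set Z' : Subgroup A := (Z : Subgroup B).map B.subtype with hZ'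
  have hZ'p : IsPGroup p Z' := Z.2.map _
  have hZ'c : Nat.card Z' = p ^ (Nat.card B).factorization p := by
    rw [← hZc]
    exact Subgroup.card_map_of_injective Subtype.val_injective
  obtain ⟨γ, hγ⟩ := Cfsg.Agent.Lib.H89SatGrpB.exists_conj_le Y Z' hZ'p
  refine ⟨γ, ?_⟩
  set B' : Subgroup A := B.map (MulAut.conj γ).toMonoidHom with hB'
  have hB'c : Nat.card B' = Nat.card B :=
    Subgroup.card_map_of_injective (MulAut.conj γ).injective
  have hIp : IsPGroup p ((Y : Subgroup A) ⊓ B' : Subgroup A) := Y.2.to_le inf_le_left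
  obtain ⟨k, hk⟩ := IsPGroup.iff_card.mp hIp
  have h1 : p ^ k ∣ Nat.card B := by
    rw [← hk, ← hB'c]
    exact Subgroup.card_dvd_of_le inf_le_right
  have h2 : k ≤ (Nat.card B).factorization p :=
    (hp.pow_dvd_iff_le_factorization Nat.card_pos.ne').mp h1
  have h3 : Z'.map (MulAut.conj γ).toMonoidHom ≤ (Y : Subgroup A) ⊓ B' := by
    rintro _ ⟨z, hz, rfl⟩
    refine ⟨hγ z hz, ?_⟩
    obtain ⟨b, -, rfl⟩ := hz
    exact ⟨b, b.2, rfl⟩
  have h4 : p ^ (Nat.card B).factorization p ∣ p ^ k := by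
    have h6 : Nat.card (Z'.map (MulAut.conj γ).toMonoidHom) = Nat.card Z' :=
      Subgroup.card_map_of_injective (MulAut.conj γ).injective
    rw [← hk, ← hZ'c, ← h6]
    exact Subgroup.card_dvd_of_le h3
  have h5 : (Nat.card B).factorization p ≤ k := (Nat.pow_dvd_pow_iff_le_right hp.one_lt).mp h4
  rw [hk, le_antisymm h2 h5]

end Cfsg.Agent.Lib.H89SatGrpC
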