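import Mathlib
import Cfsg.Agent.Lib.Helper89Sat0
import Cfsg.Agent.Lib.H89SatNsys
import Cfsg.Agent.Lib.H89SatGrpC

set_option autoImplicit false

namespace Cfsg.Agent.Lib.H89SatIa

open Cfsg Cfsg.FusionSystem Cfsg.Agent.Lib.Helper87Fusion Cfsg.Agent.Lib.Helper86Group
  Cfsg.Agent.Lib.Helper86Fusion Cfsg.Agent.Lib.Helper86Fusion2 Cfsg.Agent.Lib.Helper86Fusion3
  Cfsg.Agent.Lib.Helper87Fusion2 Cfsg.Agent.Lib.Helper87Mk Cfsg.Agent.Lib.Helper87NormSys
  Cfsg.Agent.Lib.Helper89Sat0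
  Cfsg.Agent.Lib.H89SatNsys Cfsg.Agent.Lib.H89SatGrpC

variable {Ω : Type*} [Group Ω] {S : Subgroup Ω}

/-- stabilizer of a subgroup `T` in `Aut(Q)`. -/
def stab (Q T : Subgroup Ω) : Subgroup (MulAut Q) where
  carrier := {α | ∀ x : Q, (x : Ω) ∈ T ↔ ((α x : Q) : Ω) ∈ T}
  one_mem' := fun _ => Iff.rfl
  mul_mem' := by
    intro a b ha hb x
    exact (hb x).trans (ha (b x))
  inv_mem' := by
    intro a ha x
    have := ha (a⁻¹ x)
    rw [MulAut.apply_inv_self] at this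
    exact this.symm

theorem mem_stab_iff {Q T : Subgroup Ω} (α : MulAut Q) :
    α ∈ stab Q T ↔ ∀ x : Q, (x : Ω) ∈ T ↔ ((α x : Q) : Ω) ∈ T := Iff.rfl

theorem mem_stab_of_forall {Q T : Subgroup Ω} [Finite Q] (α : MulAut Q)
    (h : ∀ x : Q, (x : Ω) ∈ T → ((α x : Q) : Ω) ∈ T) : α ∈ stab Q T := by
  intro x
  refine ⟨h x, fun hx => ?_⟩
  let g : {y : Q // (y : Ω) ∈ T} → {y : Q // (y : Ω) ∈ T} := fun y => ⟨α y.1, h y.1 y.2⟩
  have hinj : Function.Injective g := by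
    intro a b hab
    apply Subtype.ext
    exact α.injective (congrArg Subtype.val hab)
  have hsurj := Finite.surjective_of_injective hinj
  obtain ⟨y, hy⟩ := hsurj ⟨α x, hx⟩
  have h1 : α y.1 = α x := congrArg Subtype.val hy
  rw [← α.injective h1]
  exact y.2

/-- IMPROVEMENT (a). -/
theorem improve_a [Finite S] {p : ℕ} [Fact p.Prime] (hS : IsPGroup p S) (F : FusionSystem S)
    {P Q : Subgroup Ω} (hPQ : P ≤ Q) (hQN : Q ≤ normalizerIn S P) (hQ : Good F p Q) :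
    ∃ (P' Q' : Subgroup Ω) (hP' : P' ≤ S) (f₀ : Ω → Ω), IsMap F Q f₀ ∧
      f₀ '' (Q : Set Ω) = (Q' : Set Ω) ∧ f₀ '' (P : Set Ω) = (P' : Set Ω) ∧
      F.IsReceptive Q' ∧ (nsys F P' hP').IsFullyAutomized p Q' := by
  obtain ⟨Q', hconj, hfaQ, hrec⟩ := hQ
  obtain ⟨χ, hχ, hχQ⟩ := isConj_iff.1 hconj
  obtain ⟨P₁, hP₁⟩ := hχ.exists_image_of_le hPQ
  have hQ'S := hrec.1
  have : Finite Q' := finite_of_le hQ'S
  obtain ⟨Y, hY⟩ := hfaQ.2
  obtain ⟨γ, hγ⟩ := sylow_inf_conj Y ((stab Q' P₁).subgroupOf (F.autGroup Q'))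
  have hc : IsMap F Q' (totA (γ : MulAut Q')) := (mem_autGroup_iff_totA F hQ'S _).1 γ.2
  have hP₁Q' : P₁ ≤ Q' := by
    intro y hy
    obtain ⟨x, hx, rfl⟩ := IsMap.exists_of_mem_image hP₁ hy
    exact IsMap.mem_image hχQ (hPQ hx)
  obtain ⟨P', hP'⟩ := hc.exists_image_of_le hP₁Q'
  have hP'Q' : P' ≤ Q' := by
    intro y hy
    obtain ⟨x, hx, rfl⟩ := IsMap.exists_of_mem_image hP' hy
    exact totA_mem _ (hP₁Q' hx)
  have hP'S : P' ≤ S := hP'Q'.trans hQ'S
  have hf₀ : IsMap F Q (fun x => totA (γ : MulAut Q') (χ x)) :=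
    hχ.comp hc (fun x hx => IsMap.mem_image hχQ hx)
  have hf₀Q : (fun x => totA (γ : MulAut Q') (χ x)) '' (Q : Set Ω) = (Q' : Set Ω) := by
    rw [← totA_image (γ : MulAut Q'), ← hχQ, Set.image_image]
  have hf₀P : (fun x => totA (γ : MulAut Q') (χ x)) '' (P : Set Ω) = (P' : Set Ω) := by
    rw [← hP', ← hP₁, Set.image_image]
  have hQ'N : Q' ≤ normalizerIn S P' := by
    intro y hy
    obtain ⟨x, hx, rfl⟩ := IsMap.exists_of_mem_image hf₀Q hy
    exact map_mem_normalizerIn hf₀ hPQ hf₀P hx (hQN hx)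
  refine ⟨P', Q', hP'S, _, hf₀, hf₀Q, hf₀P, hrec, ?_⟩
  have : Finite (normalizerIn S P') := finite_of_le (normalizerIn_le S P')
  rw [fullyAutomized_iff_card (nsys F P' hP'S) hQ'N]
  have h1 : (nsys F P' hP'S).autGroup Q' = F.autGroup Q' ⊓ stab Q' P' := by
    ext α
    rw [mem_autGroup_nsys_iff F hP'S hP'Q' hQ'N, Subgroup.mem_inf]
    constructor
    · rintro ⟨h, h'⟩; exact ⟨h, mem_stab_of_forall α h'⟩
    · rintro ⟨h, h'⟩; exact ⟨h, fun x hx => (h' x).1 hx⟩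
  have h2 : autInducedBy (normalizerIn S P') Q' = autInducedBy S Q' ⊓ stab Q' P' := by
    ext α
    rw [Subgroup.mem_inf, mem_autInducedBy_iff, mem_autInducedBy_iff]
    constructor
    · rintro ⟨g, hg, hga⟩
      refine ⟨⟨g, normalizerIn_le S P' hg, hga⟩, mem_stab_of_forall α ?_⟩
      intro x hx
      rw [hga]
      exact ((mem_normalizerIn.1 hg).2 _).1 hx
    · rintro ⟨⟨g, hg, hga⟩, hst⟩
      refine ⟨g, ?_, hga⟩
      rw [mem_normalizerIn]
      refine ⟨hg, fun x => ?_⟩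
      constructor
      · intro hx
        have := (hst ⟨x, hP'Q' hx⟩).1 hx
        rwa [hga] at this
      · intro hx
        set z : Q' := α⁻¹ ⟨g * x * g⁻¹, hP'Q' hx⟩ with hz
        have hαz : α z = ⟨g * x * g⁻¹, hP'Q' hx⟩ := by
          rw [hz, MulAut.apply_inv_self]
        have e1 : g * (z : Ω) * g⁻¹ = g * x * g⁻¹ := by
          rw [← hga z, hαz]
        have e2 : (z : Ω) = x := mul_left_cancel (mul_right_cancel e1)
        rw [← e2]
        apply (hst z).2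
        rw [hαz]
        exact hx
  have hγP : ∀ z : Q', (z : Ω) ∈ P₁ → (((γ : MulAut Q') z : Q') : Ω) ∈ P' := by
    intro z hz
    rw [← totA_apply]
    exact IsMap.mem_image hP' hz
  have hγP' : ∀ x : Q', (x : Ω) ∈ P' → ∃ z : Q', (z : Ω) ∈ P₁ ∧ (γ : MulAut Q') z = x := by
    intro x hx
    obtain ⟨z, hz, hzx⟩ := IsMap.exists_of_mem_image hP' hx
    refine ⟨⟨z, hP₁Q' hz⟩, hz, Subtype.ext ?_⟩
    rw [← hzx, ← totA_apply]
  have h3 : ((stab Q' P₁).subgroupOf (F.autGroup Q')).map (MulAut.conj γ).toMonoidHom =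
      (stab Q' P').subgroupOf (F.autGroup Q') := by
    ext α
    constructor
    · rintro ⟨β, hβ, rfl⟩
      have hβ' : (β : MulAut Q') ∈ stab Q' P₁ := hβ
      rw [Subgroup.mem_subgroupOf]
      apply mem_stab_of_forall
      intro x hx
      obtain ⟨z, hz, rfl⟩ := hγP' x hx
      show (((γ : MulAut Q') ((β : MulAut Q') ((γ : MulAut Q')⁻¹ ((γ : MulAut Q') z))) : Q') : Ω) ∈ P'
      rw [MulAut.inv_apply_self]
      exact hγP _ ((hβ' z).1 hz)
    · intro hα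
      have hα' : (α : MulAut Q') ∈ stab Q' P' := hα
      refine ⟨γ⁻¹ * α * γ, ?_, ?_⟩
      · show ((γ⁻¹ * α * γ : F.autGroup Q') : MulAut Q') ∈ stab Q' P₁
        apply mem_stab_of_forall
        intro z hz
        show (((γ : MulAut Q')⁻¹ ((α : MulAut Q') ((γ : MulAut Q') z)) : Q') : Ω) ∈ P₁
        obtain ⟨w, hw, hwe⟩ := hγP' _ ((hα' _).1 (hγP z hz))
        rw [← hwe, MulAut.inv_apply_self]
        exact hw
      · show γ * (γ⁻¹ * α * γ) * γ⁻¹ = α
        group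
  have c1 : Nat.card ((stab Q' P₁).subgroupOf (F.autGroup Q')) =
      Nat.card ((nsys F P' hP'S).autGroup Q') := by
    have hinj : Function.Injective (MulAut.conj γ).toMonoidHom := (MulAut.conj γ).injective
    rw [h1, ← Subgroup.card_map_of_injective hinj, h3, ← Subgroup.inf_subgroupOf_left]
    exact Nat.card_congr (Subgroup.subgroupOfEquivOfLe inf_le_left).toEquiv
  have c2 : Nat.card ((Y : Subgroup (F.autGroup Q')) ⊓
      ((stab Q' P₁).subgroupOf (F.autGroup Q')).map (MulAut.conj γ).toMonoidHom : Subgroup _) =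
      Nat.card (autInducedBy (normalizerIn S P') Q') := by
    rw [h3, hY, h2]
    have hle : autInducedBy S Q' ⊓ stab Q' P' ≤ F.autGroup Q' :=
      inf_le_left.trans (autInducedBy_le_autGroup F hQ'S)
    exact Nat.card_congr (Subgroup.subgroupOfEquivOfLe hle).toEquiv
  rw [← c2, ← c1]
  exact hγ

end Cfsg.Agent.Lib.H89SatIa
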