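import Mathlib
import Cfsg.Agent.Lib.Helper89Sat0
import Cfsg.Agent.Lib.H89SatNsys

set_option autoImplicit false

namespace Cfsg.Agent.Lib.H89SatIb

open Cfsg Cfsg.FusionSystem Cfsg.Agent.Lib.Helper87Fusion Cfsg.Agent.Lib.Helper86Group
  Cfsg.Agent.Lib.Helper86Fusion Cfsg.Agent.Lib.Helper86Fusion2 Cfsg.Agent.Lib.Helper86Fusion3
  Cfsg.Agent.Lib.Helper87Fusion2 Cfsg.Agent.Lib.Helper87Mk Cfsg.Agent.Lib.Helper87NormSys
  Cfsg.Agent.Lib.Helper89Sat0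
  Cfsg.Agent.Lib.H89SatNsys

variable {Ω : Type*} [Group Ω] {S : Subgroup Ω}

/-- IMPROVEMENT (b). -/
theorem improve_b [Finite S] {p : ℕ} [Fact p.Prime] (hS : IsPGroup p S) (F : FusionSystem S)
    {P' Q' : Subgroup Ω} (hP' : P' ≤ S) (hPQ' : P' ≤ Q') (hrec : F.IsReceptive Q')
    (hfa : (nsys F P' hP').IsFullyAutomized p Q')
    {P₁ Q₁ : Subgroup Ω} {f : Ω → Ω} (hP₁ : P₁ ≤ Q₁) (hf : IsMap F Q₁ f)
    (hfQ : f '' (Q₁ : Set Ω) = (Q' : Set Ω)) (hfP : f '' (P₁ : Set Ω) = (P' : Set Ω)) :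
    ∃ ψ : Ω → Ω, IsMap F (normalizerIn S P₁ ⊓ normalizerIn S Q₁) ψ ∧
      ψ '' (P₁ : Set Ω) = (P' : Set Ω) ∧ ψ '' (Q₁ : Set Ω) = (Q' : Set Ω) := by
  obtain ⟨e, he⟩ := exists_mulEquiv hf hfQ
  have hQ'N : Q' ≤ normalizerIn S P' := hfa.1
  have hQ'S : Q' ≤ S := hrec.1
  have hQ₁S := hf.le
  have : Finite Q' := finite_of_le hQ'S
  have : Finite Q₁ := finite_of_le hQ₁S
  obtain ⟨R, hR⟩ := hfa.2
  obtain ⟨χ, hχ, hχf, hfχ, hχQ⟩ := hf.inv hfQ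
  set K : Subgroup Ω := normalizerIn S P₁ ⊓ normalizerIn S Q₁ with hK
  have hKS : K ≤ S := inf_le_left.trans (normalizerIn_le S P₁)
  have hχP : ∀ y ∈ P', χ y ∈ P₁ := by
    intro y hy
    obtain ⟨x, hx, rfl⟩ := IsMap.exists_of_mem_image hfP hy
    rw [hχf x (hP₁ hx)]
    exact hx
  let A : Subgroup (MulAut Q') := (autInducedBy K Q₁).map (MulAut.congr e).toMonoidHom
  have hA : IsPGroup p A := (autInducedBy_isPGroup (hS.to_le hKS) Q₁).map _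
  have hesymm : ∀ y : Q', ((e.symm y : Q₁) : Ω) = χ y := by
    intro y
    have := hχf (e.symm y) (e.symm y).2
    rw [← he] at this
    simpa using this.symm
  have hAle : A ≤ (nsys F P' hP').autGroup Q' := by
    rintro _ ⟨α, hα, rfl⟩
    obtain ⟨g, hg, hga⟩ := (mem_autInducedBy_iff K Q₁ α).1 hα
    have hgmem : ∀ x ∈ Q₁, g * x * g⁻¹ ∈ Q₁ := fun x hx => by
      rw [← hga ⟨x, hx⟩]; exact (α ⟨x, hx⟩).2
    rw [mem_autGroup_nsys_iff F hP' hPQ' hQ'N]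
    constructor
    · rw [mem_autGroup_iff_isMap F hQ'S _ (f := fun y => f (g * χ y * g⁻¹))]
      · exact (hχ.comp (isMap_conj F hQ₁S (hKS hg)) (fun y hy => IsMap.mem_image hχQ hy)).comp hf
          (fun y hy => hgmem _ (IsMap.mem_image hχQ hy))
      · intro y
        show ((e (α (e.symm y)) : Q') : Ω) = _
        rw [he, hga, hesymm]
    · intro y hy
      show ((e (α (e.symm y)) : Q') : Ω) ∈ P'
      rw [he, hga, hesymm]
      apply IsMap.mem_image hfP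
      exact ((mem_normalizerIn.1 hg.1).2 _).1 (hχP y hy)
  have hA' : IsPGroup p (A.subgroupOf ((nsys F P' hP').autGroup Q')) := hA.comap_subtype
  obtain ⟨R', hR'⟩ := hA'.exists_le_sylow
  obtain ⟨β, hβ⟩ := MulAction.exists_smul_eq ((nsys F P' hP').autGroup Q') R' R
  have hβF := (mem_autGroup_nsys_iff F hP' hPQ' hQ'N (β : MulAut Q')).1 β.2
  have hβinv := (mem_autGroup_nsys_iff F hP' hPQ' hQ'N ((β⁻¹ : (nsys F P' hP').autGroup Q') : MulAut Q')).1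
    (β⁻¹).2
  have hb : IsMap F Q' (tot (Q'.subtype.comp (β : MulAut Q').toMonoidHom)) :=
    isMap_tot ((mem_autGroup_iff F hQ'S β).1 hβF.1)
  set b := tot (Q'.subtype.comp (β : MulAut Q').toMonoidHom) with hbdef
  have hbβ : ∀ y : Q', b y = (((β : MulAut Q') y : Q') : Ω) := fun y => tot_apply _ y
  have hbQ : b '' (Q' : Set Ω) = (Q' : Set Ω) := by
    ext y
    constructor
    · rintro ⟨z, hz, rfl⟩
      rw [hbβ ⟨z, hz⟩]; exact ((β : MulAut Q') ⟨z, hz⟩).2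
    · intro hy
      refine ⟨(((β : MulAut Q').symm ⟨y, hy⟩ : Q') : Ω), ((β : MulAut Q').symm ⟨y, hy⟩).2, ?_⟩
      rw [hbβ]; simp
  have hbP : b '' (P' : Set Ω) = (P' : Set Ω) := by
    ext y
    constructor
    · rintro ⟨z, hz, rfl⟩
      rw [hbβ ⟨z, hPQ' hz⟩]; exact hβF.2 ⟨z, hPQ' hz⟩ hz
    · intro hy
      refine ⟨(((β : MulAut Q')⁻¹ ⟨y, hPQ' hy⟩ : Q') : Ω), hβinv.2 ⟨y, hPQ' hy⟩ hy, ?_⟩
      rw [hbβ]; simp
  have hf₁ : IsMap F Q₁ (fun x => b (f x)) := hf.comp hb (fun x hx => IsMap.mem_image hfQ hx)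
  have hf₁Q : (fun x => b (f x)) '' (Q₁ : Set Ω) = (Q' : Set Ω) := by
    rw [← hbQ, ← hfQ, Set.image_image]
  have hf₁P : (fun x => b (f x)) '' (P₁ : Set Ω) = (P' : Set Ω) := by
    rw [← hbP, ← hfP, Set.image_image]
  have key : ∀ g ∈ K, g ∈ S ∧ g ∈ Subgroup.normalizer (Q₁ : Set Ω) ∧
      ∃ h ∈ S, ∀ x ∈ Q₁, (fun x => b (f x)) (g * x * g⁻¹) = h * (fun x => b (f x)) x * h⁻¹ := by
    intro g hg
    refine ⟨hKS hg, hg.2.2, ?_⟩
    obtain ⟨α, hα, hαg⟩ := exists_conjAut hg hg.2.2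
    have ha : (MulAut.congr e) α ∈ A := ⟨α, hα, rfl⟩
    let a : (nsys F P' hP').autGroup Q' := ⟨(MulAut.congr e) α, hAle ha⟩
    have haR' : a ∈ (R' : Subgroup ((nsys F P' hP').autGroup Q')) := hR' (by
      rw [Subgroup.mem_subgroupOf]; exact ha)
    have haR : β * a * β⁻¹ ∈ (R : Subgroup ((nsys F P' hP').autGroup Q')) := by
      rw [← hβ, Sylow.coe_subgroup_smul, Subgroup.mem_pointwise_smul_iff_inv_smul_mem]
      simpa [MulAut.smul_def, mul_assoc] using haR'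
    rw [hR, Subgroup.mem_subgroupOf, mem_autInducedBy_iff] at haR
    obtain ⟨h, hh, hha⟩ := haR
    refine ⟨h, normalizerIn_le S P' hh, fun x hx => ?_⟩
    have hgx : g * x * g⁻¹ ∈ Q₁ := (Subgroup.mem_normalizer_iff.1 hg.2.2 x).1 hx
    have e1 := hha ((β : MulAut Q') (e ⟨x, hx⟩))
    have e2 : (((β * a * β⁻¹ : (nsys F P' hP').autGroup Q') : MulAut Q')
        ((β : MulAut Q') (e ⟨x, hx⟩))) = (β : MulAut Q') (e (α ⟨x, hx⟩)) := by
      show (β : MulAut Q') ((MulAut.congr e α) ((β : MulAut Q')⁻¹ ((β : MulAut Q') (e ⟨x, hx⟩)))) = _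
      rw [MulAut.inv_apply_self]
      show (β : MulAut Q') (e (α (e.symm (e ⟨x, hx⟩)))) = _
      rw [MulEquiv.symm_apply_apply]
    rw [e2] at e1
    have e3 : α ⟨x, hx⟩ = ⟨g * x * g⁻¹, hgx⟩ := Subtype.ext (hαg ⟨x, hx⟩)
    rw [e3, ← hbβ, ← hbβ, he, he] at e1
    exact e1
  obtain ⟨f', hf', hff'⟩ := isReceptive_extend hrec hf₁ hf₁Q key
  refine ⟨f', hf', ?_, ?_⟩
  · rw [← hf₁P]
    exact Set.image_congr (fun x hx => hff' x (hP₁ hx))
  · rw [← hf₁Q]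
    exact Set.image_congr (fun x hx => hff' x hx)

end Cfsg.Agent.Lib.H89SatIb
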