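import Mathlib
import Cfsg.Agent.Lib.Helper89Sat0
import Cfsg.Agent.Lib.H89SatNsys
import Cfsg.Agent.Lib.H89SatIa
import Cfsg.Agent.Lib.H89SatIb

set_option autoImplicit false

namespace Cfsg.Agent.Lib.H89SatC

open Cfsg Cfsg.FusionSystem Cfsg.Agent.Lib.Helper87Fusion Cfsg.Agent.Lib.Helper86Group
  Cfsg.Agent.Lib.Helper86Fusion Cfsg.Agent.Lib.Helper86Fusion2 Cfsg.Agent.Lib.Helper86Fusion3
  Cfsg.Agent.Lib.Helper87Fusion2 Cfsg.Agent.Lib.Helper87Mk Cfsg.Agent.Lib.Helper87NormSys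
  Cfsg.Agent.Lib.Helper89Sat0
  Cfsg.Agent.Lib.H89SatNsys Cfsg.Agent.Lib.H89SatIa Cfsg.Agent.Lib.H89SatIb

variable {Ω : Type*} [Group Ω] {S : Subgroup Ω}

theorem card_lt_of_lt' [Finite S] {A B : Subgroup Ω} (hB : B ≤ S) (h : A < B) :
    Nat.card A < Nat.card B := by
  have : Finite B := finite_of_le hB
  have h1 : (A : Set Ω) ⊂ (B : Set Ω) := h
  exact Set.ncard_lt_ncard h1 (Set.toFinite _)

theorem card_le_of_le' [Finite S] {A B : Subgroup Ω} (hB : B ≤ S) (h : A ≤ B) :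
    Nat.card A ≤ Nat.card B := by
  have : Finite B := finite_of_le hB
  exact Subgroup.card_le_of_le h

/-- normalizers grow inside `N_S(P)`. -/
theorem lt_inf_normalizerIn [Finite S] {p : ℕ} [Fact p.Prime] (hS : IsPGroup p S)
    {P Q : Subgroup Ω} (hQ : Q < normalizerIn S P) :
    Q < normalizerIn S P ⊓ normalizerIn S Q := by
  have hQS : Q ≤ S := hQ.le.trans (normalizerIn_le S P)
  have hfin : Finite (normalizerIn S P) := finite_of_le (normalizerIn_le S P)
  have hpg : IsPGroup p (normalizerIn S P) := hS.to_le (normalizerIn_le S P)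
  obtain ⟨x, hx, hxQ, hxN⟩ := exists_normalizer_gt hpg hQ
  refine lt_of_le_of_ne (le_inf hQ.le (le_normalizerIn hQS)) ?_
  intro h
  apply hxQ
  rw [h]
  exact ⟨hx, ⟨normalizerIn_le S P hx, hxN⟩⟩

theorem image_comp_eq {A B C : Subgroup Ω} {f g : Ω → Ω} (h1 : f '' (A : Set Ω) = (B : Set Ω))
    (h2 : g '' (B : Set Ω) = (C : Set Ω)) : (fun x => g (f x)) '' (A : Set Ω) = (C : Set Ω) := by
  rw [← h2, ← h1, Set.image_image]

theorem image_le_image {A A' B B' : Subgroup Ω} {f : Ω → Ω} (h : A ≤ A')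
    (h1 : f '' (A : Set Ω) = (B : Set Ω)) (h2 : f '' (A' : Set Ω) = (B' : Set Ω)) : B ≤ B' := by
  intro y hy
  obtain ⟨x, hx, rfl⟩ := IsMap.exists_of_mem_image h1 hy
  exact IsMap.mem_image h2 (h hx)

theorem claimC_aux [Finite S] {p : ℕ} [Fact p.Prime] (hS : IsPGroup p S) (F : FusionSystem S) {n : ℕ}
    (hgood : ∀ Q : Subgroup Ω, Q ≤ S → n < Nat.card Q → Good F p Q)
    {Pm : Subgroup Ω} (hfn : F.IsFullyNormalized Pm) (hcard : Nat.card Pm = n) (k : ℕ) :
    ∀ (P Q : Subgroup Ω) (φ : Ω → Ω), Nat.card S - Nat.card Q ≤ k → P < Q → Q ≤ normalizerIn S P →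
      IsMap F Q φ → φ '' (P : Set Ω) = (Pm : Set Ω) →
      ∃ ν : Ω → Ω, IsMap F (normalizerIn S P) ν ∧ ν '' (P : Set Ω) = (Pm : Set Ω) := by
  induction k with
  | zero =>
    intro P Q φ hk hPQ hQN hφ hφP
    have hQS : Q ≤ S := hφ.le
    have h1 : Nat.card Q ≤ Nat.card S := card_le_of_le' le_rfl hQS
    have h2 : Nat.card S ≤ Nat.card Q := by omega
    have hQeq : Q = normalizerIn S P := by
      by_contra hne
      have hlt : Q < normalizerIn S P := lt_of_le_of_ne hQN hne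
      have h3 := card_lt_of_lt' (normalizerIn_le S P) hlt
      have h4 := card_le_of_le' le_rfl (normalizerIn_le S P)
      omega
    exact ⟨φ, hQeq ▸ hφ, hφP⟩
  | succ k ih =>
    intro P Q φ hk hPQ hQN hφ hφP
    by_cases hQeq : Q = normalizerIn S P
    · exact ⟨φ, hQeq ▸ hφ, hφP⟩
    have hQlt : Q < normalizerIn S P := lt_of_le_of_ne hQN hQeq
    have hQS : Q ≤ S := hφ.le
    -- the image of Q
    obtain ⟨Qφ, hQφ⟩ := hφ.exists_image
    have hQφS : Qφ ≤ S := hφ.image_le hQφ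
    have hPmQφ : Pm ≤ Qφ := image_le_image hPQ.le hφP hQφ
    have hQφN : Qφ ≤ normalizerIn S Pm := by
      intro y hy
      obtain ⟨x, hx, rfl⟩ := IsMap.exists_of_mem_image hQφ hy
      exact map_mem_normalizerIn hφ hPQ.le hφP hx (hQN hx)
    have hcQφ : Nat.card Qφ = Nat.card Q := hφ.card_image hQφ
    have hconj : F.IsConj P Pm := isConj_iff.2 ⟨φ, hφ.restrict hPQ.le, hφP⟩
    have hcN : Nat.card (normalizerIn S P) ≤ Nat.card (normalizerIn S Pm) :=
      hfn.2 P (isConj_symm hconj)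
    have hcQ : Nat.card Q < Nat.card (normalizerIn S P) :=
      card_lt_of_lt' (normalizerIn_le S P) hQlt
    have hQφlt : Qφ < normalizerIn S Pm := by
      refine lt_of_le_of_ne hQφN ?_
      intro h
      rw [h] at hcQφ
      omega
    have hcP : Nat.card P = n := by
      rw [← hcard]
      exact (isConj_card_eq (isConj_symm hconj))
    have hcPQ : Nat.card P < Nat.card Q := card_lt_of_lt' hQS hPQ
    -- improvement (a)
    obtain ⟨P'', Qs, hP'', f₀, hf₀, hf₀Q, hf₀P, hrec, hfa⟩ :=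
      improve_a hS F hPQ.le hQN (hgood Q hQS (by omega))
    have hP''Qs : P'' ≤ Qs := image_le_image hPQ.le hf₀P hf₀Q
    -- improvement (b) for (P, Q)
    obtain ⟨ψ, hψ, hψP, hψQ⟩ := improve_b hS F hP'' hP''Qs hrec hfa hPQ.le hf₀ hf₀Q hf₀P
    have hR : Q < normalizerIn S P ⊓ normalizerIn S Q := lt_inf_normalizerIn hS hQlt
    -- improvement (b) for (Pm, Qφ)
    obtain ⟨g, hg, hgφ, hφg, hgQ⟩ := hφ.inv hQφ
    have hgPm : g '' (Pm : Set Ω) = (P : Set Ω) := by
      rw [← hφP, Set.image_image]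
      ext x
      constructor
      · rintro ⟨y, hy, rfl⟩
        beta_reduce
        rw [hgφ y (hPQ.le hy)]
        exact hy
      · intro hx
        exact ⟨x, hx, hgφ x (hPQ.le hx)⟩
    have hf₁ : IsMap F Qφ (fun y => f₀ (g y)) :=
      hg.comp hf₀ (fun y hy => IsMap.mem_image hgQ hy)
    obtain ⟨ψ', hψ', hψ'P, hψ'Q⟩ := improve_b hS F hP'' hP''Qs hrec hfa hPmQφ hf₁
      (image_comp_eq hgQ hf₀Q) (image_comp_eq hgPm hf₀P)
    have hR' : Qφ < normalizerIn S Pm ⊓ normalizerIn S Qφ := lt_inf_normalizerIn hS hQφlt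
    -- link 1
    obtain ⟨R'', hR''⟩ := hψ'.exists_image
    have hR''S : R'' ≤ S := hψ'.image_le hR''
    obtain ⟨h', hh', hh'ψ, -, -⟩ := hψ'.inv hR''
    have hPmR' : Pm ≤ normalizerIn S Pm ⊓ normalizerIn S Qφ := hPmQφ.trans hR'.le
    have hh'P : h' '' (P'' : Set Ω) = (Pm : Set Ω) := by
      rw [← hψ'P, Set.image_image]
      ext x
      constructor
      · rintro ⟨y, hy, rfl⟩
        beta_reduce
        rw [hh'ψ y (hPmR' hy)]
        exact hy
      · intro hx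
        exact ⟨x, hx, hh'ψ x (hPmR' hx)⟩
    have hcR'' : Nat.card R'' = Nat.card ↥(normalizerIn S Pm ⊓ normalizerIn S Qφ) :=
      hψ'.card_image hR''
    have hcR' : Nat.card Qφ < Nat.card ↥(normalizerIn S Pm ⊓ normalizerIn S Qφ) :=
      card_lt_of_lt' hψ'.le hR'
    have hcP'' : Nat.card P'' = Nat.card Pm := (hψ'.restrict hPmR').card_image hψ'P
    have hP''R'' : P'' < R'' := by
      refine lt_of_le_of_ne (image_le_image hPmR' hψ'P hR'') ?_
      intro h
      rw [h] at hcP''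
      omega
    have hR''N : R'' ≤ normalizerIn S P'' := by
      intro y hy
      obtain ⟨x, hx, rfl⟩ := IsMap.exists_of_mem_image hR'' hy
      exact map_mem_normalizerIn hψ' hPmR' hψ'P hx hx.1
    have hcS'' : Nat.card R'' ≤ Nat.card S := card_le_of_le' le_rfl hR''S
    obtain ⟨ν'', hν'', hν''P⟩ := ih P'' R'' h' (by omega) hP''R'' hR''N hh' hh'P
    -- link 2
    have hPR : P ≤ normalizerIn S P ⊓ normalizerIn S Q := hPQ.le.trans hR.le
    have hcomp : IsMap F (normalizerIn S P ⊓ normalizerIn S Q) (fun x => ν'' (ψ x)) :=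
      hψ.comp hν'' (fun x hx => map_mem_normalizerIn hψ hPR hψP hx hx.1)
    have hcR : Nat.card Q < Nat.card ↥(normalizerIn S P ⊓ normalizerIn S Q) :=
      card_lt_of_lt' hψ.le hR
    have hcRS : Nat.card ↥(normalizerIn S P ⊓ normalizerIn S Q) ≤ Nat.card S :=
      card_le_of_le' le_rfl hψ.le
    exact ih P _ _ (by omega) (lt_of_lt_of_le hPQ hR.le) inf_le_left hcomp
      (image_comp_eq hψP hν''P)

/-- CLAIM (C). -/
theorem claimC [Finite S] {p : ℕ} [Fact p.Prime] (hS : IsPGroup p S) (F : FusionSystem S) {n : ℕ}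
    (hgood : ∀ Q : Subgroup Ω, Q ≤ S → n < Nat.card Q → Good F p Q)
    {Pm : Subgroup Ω} (hfn : F.IsFullyNormalized Pm) (hcard : Nat.card Pm = n)
    {P Q : Subgroup Ω} {φ : Ω → Ω} (hPQ : P < Q) (hQN : Q ≤ normalizerIn S P) (hφ : IsMap F Q φ)
    (hφP : φ '' (P : Set Ω) = (Pm : Set Ω)) :
    ∃ ν : Ω → Ω, IsMap F (normalizerIn S P) ν ∧ ν '' (P : Set Ω) = (Pm : Set Ω) :=
  claimC_aux hS F hgood hfn hcard _ P Q φ le_rfl hPQ hQN hφ hφP

end Cfsg.Agent.Lib.H89SatC
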