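import Mathlib
import Cfsg.Agent.Lib.Helper89Sat0

set_option autoImplicit false

namespace Cfsg.Agent.Lib.H89SatExt

open Cfsg Cfsg.FusionSystem Cfsg.Agent.Lib.Helper87Fusion Cfsg.Agent.Lib.Helper86Group
  Cfsg.Agent.Lib.Helper86Fusion Cfsg.Agent.Lib.Helper86Fusion2 Cfsg.Agent.Lib.Helper86Fusion3
  Cfsg.Agent.Lib.Helper87Fusion2 Cfsg.Agent.Lib.Helper87Mk Cfsg.Agent.Lib.Helper87NormSys
  Cfsg.Agent.Lib.Helper89Sat0

variable {Ω : Type*} [Group Ω] {S : Subgroup Ω}

variable {N : Subgroup Ω} [Finite N] {p : ℕ} [Fact p.Prime] {E : FusionSystem N} {P H : Subgroup Ω}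

theorem ext_congr {f g : Ω → Ω} (hf : Ext E P H f) (hfg : ∀ x ∈ P, f x = g x) : Ext E P H g := by
  obtain ⟨k, hk, hkf⟩ := hf
  exact ⟨k, hk, fun x hx => (hkf x hx).trans (hfg x hx)⟩

/-- composite of the two extensions (`f̃(H) = H`, `f̃(P) = P` by `h.inv`). -/
theorem ext_comp (h : NCtx E p P) (hPH : P ≤ H)
    (hHH : ∀ g : Ω → Ω, IsMap E H g → g '' (H : Set Ω) = (H : Set Ω)) {f g : Ω → Ω}
    (hf : Ext E P H f) (hg : Ext E P H g) : Ext E P H (fun x => g (f x)) := by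
  obtain ⟨f', hf', hff⟩ := hf
  obtain ⟨g', hg', hgg⟩ := hg
  refine ⟨fun x => g' (f' x), hf'.comp hg' (fun x hx => IsMap.mem_image (hHH f' hf') hx), ?_⟩
  intro x hx
  have h1 : f' x ∈ P := IsMap.mem_image (h.inv H f' hPH hf') hx
  change g' (f' x) = g (f x)
  rw [hgg _ h1, hff x hx]

/-- inverse of the extension (`IsMap.inv`). -/
theorem ext_inv (h : NCtx E p P) (hPH : P ≤ H)
    (hHH : ∀ g : Ω → Ω, IsMap E H g → g '' (H : Set Ω) = (H : Set Ω)) {f g : Ω → Ω}
    (hf : Ext E P H f) (hg : ∀ x ∈ P, g (f x) = x) : Ext E P H g := by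
  obtain ⟨f', hf', hff⟩ := hf
  obtain ⟨k, hk, hk1, -, -⟩ := hf'.inv (hHH f' hf')
  refine ⟨k, hk, ?_⟩
  intro y hy
  obtain ⟨x, hx, rfl⟩ := IsMap.exists_of_mem_image (h.inv H f' hPH hf') hy
  rw [hk1 x (hPH hx), hff x hx, hg x hx]

/-- `Γ₁ := {α : MulAut P | Ext E P H (totA α)}` is a subgroup (`ext_comp`, `ext_inv`, identity) containing all restrictions by `hK`; `h.gen` gives `Aut_E(P) ≤ Γ₁`.
An `E`-map `f` on `P` has image `P` (`h.inv`), so is `totA α` on `P` for some `α ∈ Aut_E(P)` (`IsMap.exists_aut`). -/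
theorem surj (h : NCtx E p P) (hPH : P ≤ H) (hHN : H ≤ N)
    (hHH : ∀ g : Ω → Ω, IsMap E H g → g '' (H : Set Ω) = (H : Set Ω))
    (hK : ∀ (R : Subgroup Ω) (f : Ω → Ω), P < R → IsMap E R f → Ext E P H f) :
    ∀ f : Ω → Ω, IsMap E P f → Ext E P H f := by
  let Γ₁ : Subgroup (MulAut P) :=
    { carrier := {α | Ext E P H (totA α)}
      one_mem' := by
        refine ⟨fun x => x, isMap_id' E hHN, ?_⟩
        intro x hx
        rw [totA_of_mem _ hx]
        rfl
      mul_mem' := by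
        intro α β hα hβ
        refine ext_congr (ext_comp h hPH hHH hβ hα) ?_
        intro x hx
        change totA α (totA β x) = totA (α * β) x
        rw [totA_of_mem β hx, totA_apply, totA_of_mem _ hx]
        rfl
      inv_mem' := by
        intro α hα
        refine ext_inv h hPH hHH hα ?_
        intro x hx
        rw [totA_of_mem α hx, totA_apply]
        simp }
  have hle : E.autGroup P ≤ Γ₁ := by
    apply h.gen
    intro R f α hPR hf hα
    refine ext_congr (hK R f hPR hf) ?_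
    intro x hx
    rw [totA_of_mem α hx]
    exact (hα ⟨x, hx⟩).symm
  intro f hf
  obtain ⟨α, hα, hαf⟩ := hf.exists_aut (h.inv P f le_rfl hf)
  refine ext_congr (hle hα) ?_
  intro x hx
  rw [totA_of_mem α hx]
  exact hαf ⟨x, hx⟩

end Cfsg.Agent.Lib.H89SatExt
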