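import Mathlib
import Cfsg.Agent.Lib.Helper89Sat0

set_option autoImplicit false

namespace Cfsg.Agent.Lib.H89SatHat

open Cfsg Cfsg.FusionSystem Cfsg.Agent.Lib.Helper87Fusion Cfsg.Agent.Lib.Helper86Group
  Cfsg.Agent.Lib.Helper86Fusion Cfsg.Agent.Lib.Helper86Fusion2 Cfsg.Agent.Lib.Helper86Fusion3
  Cfsg.Agent.Lib.Helper87Fusion2 Cfsg.Agent.Lib.Helper87Mk Cfsg.Agent.Lib.Helper87NormSys
  Cfsg.Agent.Lib.Helper89Sat0

variable {Ω : Type*} [Group Ω] {S : Subgroup Ω}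

variable {N : Subgroup Ω} [Finite N] {p : ℕ} [Fact p.Prime] {E : FusionSystem N} {P H : Subgroup Ω}

/-- `N` normalizes `P`. -/
theorem le_normalizer (h : NCtx E p P) : N ≤ Subgroup.normalizer (P : Set Ω) := by
  intro g hg
  have h1 := h.inv N _ h.le (isMap_conj E le_rfl hg)
  rw [Subgroup.mem_set_normalizer_iff]
  intro x
  constructor
  · intro hx
    exact IsMap.mem_image h1 hx
  · intro hx
    obtain ⟨y, hy, e⟩ := IsMap.exists_of_mem_image h1 hx
    have : y = x := by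
      have e' : g * y * g⁻¹ = g * x * g⁻¹ := e
      simpa using e'
    rwa [← this]

/-- `opAut` is normalized by `Aut_E(P)`. -/
theorem opAut_conj {φ α : MulAut P} (hφ : φ ∈ E.autGroup P) (hα : α ∈ opAut E p P) :
    φ * α * φ⁻¹ ∈ opAut E p P := by
  unfold opAut at hα ⊢
  rw [Subgroup.mem_map] at hα ⊢
  obtain ⟨a, ha, rfl⟩ := hα
  have h1 := (pCore_normal p ↥(E.autGroup P)).conj_mem a ha ⟨φ, hφ⟩
  refine ⟨_, h1, ?_⟩
  rw [map_mul, map_mul, map_inv]
  rfl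

/-- `Inn P ≤ opAut`. -/
theorem inn_le_opAut (hN : IsPGroup p N) (hPN : P ≤ N) : Inn P ≤ opAut E p P := by
  have h1 : Inn P ≤ E.autGroup P := inn_le_autGroup E hPN
  have hn : ((Inn P).subgroupOf (E.autGroup P)).Normal := by
    refine ⟨fun a ha g => ?_⟩
    rw [Subgroup.mem_subgroupOf] at ha ⊢
    obtain ⟨x, hx⟩ := ha
    refine ⟨(g : MulAut P) x, ?_⟩
    change MulAut.conj ((g : MulAut P) x) = (g : MulAut P) * (a : MulAut P) * (g : MulAut P)⁻¹
    rw [← hx]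
    ext y
    simp [MulAut.conj_apply]
  have hPp : IsPGroup p P := hN.to_le hPN
  have hp1 : IsPGroup p (Inn P) := by
    exact hPp.of_surjective (MulAut.conj : P →* MulAut P).rangeRestrict
      (MonoidHom.rangeRestrict_surjective _)
  have hp2 : IsPGroup p ((Inn P).subgroupOf (E.autGroup P)) :=
    hp1.comap_of_injective _ Subtype.val_injective
  intro α hα
  exact ⟨⟨α, h1 hα⟩, le_pCore hn hp2 (Subgroup.mem_subgroupOf.mpr hα), rfl⟩

/-- the set `{x ∈ N : c_x|P ∈ O_p(Aut_E(P))}` is a subgroup. -/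
theorem exists_hat (h : NCtx E p P) : ∃ H : Subgroup Ω, IsHat E p P H := by
  refine ⟨{ carrier := {x | x ∈ N ∧ ∃ α ∈ opAut E p P, ∀ y : P, ((α y : P) : Ω) = x * y * x⁻¹}
            one_mem' := ⟨N.one_mem, 1, Subgroup.one_mem _, fun y => by simp⟩
            mul_mem' := ?_
            inv_mem' := ?_ }, fun x => Iff.rfl⟩
  · rintro a b ⟨ha, α, hα, hαa⟩ ⟨hb, β, hβ, hβb⟩
    refine ⟨N.mul_mem ha hb, α * β, Subgroup.mul_mem _ hα hβ, fun y => ?_⟩
    rw [MulAut.mul_apply, hαa, hβb]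
    group
  · rintro a ⟨ha, α, hα, hαa⟩
    refine ⟨N.inv_mem ha, α⁻¹, Subgroup.inv_mem _ hα, fun y => ?_⟩
    have h1 := hαa (α⁻¹ y)
    rw [MulAut.apply_inv_self] at h1
    rw [h1]
    group

/-- `P ≤ H ≤ N` and `H` is invariant under all `E`-maps defined on subgroups containing `P`. -/
theorem hat_basic (hN : IsPGroup p N) (h : NCtx E p P) (hH : IsHat E p P H) :
    P ≤ H ∧ H ≤ N ∧ ∀ (R : Subgroup Ω) (f : Ω → Ω), P ≤ R → IsMap E R f → ∀ x ∈ R, (x ∈ H ↔ f x ∈ H) := by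
  refine ⟨?_, fun x hx => ((hH x).mp hx).1, ?_⟩
  · intro x hx
    rw [hH x]
    exact ⟨h.le hx, MulAut.conj ⟨x, hx⟩, inn_le_opAut hN h.le ⟨_, rfl⟩, fun y => rfl⟩
  · intro R f hPR hf x hx
    obtain ⟨φ, hφ, hφf⟩ := (hf.restrict hPR).exists_aut (h.inv R f hPR hf)
    rw [hH x, hH (f x)]
    constructor
    · rintro ⟨-, α, hα, hαx⟩
      refine ⟨hf.mem hx, φ * α * φ⁻¹, opAut_conj hφ hα, fun y => ?_⟩
      rw [MulAut.mul_apply, MulAut.mul_apply, hφf, hαx, hf.map_conj hx (hPR (φ⁻¹ y).2), ← hφf,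
        MulAut.apply_inv_self]
    · rintro ⟨-, β, hβ, hβx⟩
      have hxN : x ∈ N := hf.le hx
      have hφ' : φ⁻¹ ∈ E.autGroup P := Subgroup.inv_mem _ hφ
      refine ⟨hxN, φ⁻¹ * β * φ⁻¹⁻¹, opAut_conj hφ' hβ, fun y => ?_⟩
      have hm : x * y * x⁻¹ ∈ P :=
        (Subgroup.mem_set_normalizer_iff.mp (le_normalizer h hxN) y).mp y.2
      have e1 : β (φ y) = φ ⟨x * y * x⁻¹, hm⟩ := by
        apply Subtype.ext
        rw [hβx, hφf, hφf, hf.map_conj hx (hPR y.2)]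
      rw [inv_inv, MulAut.mul_apply, MulAut.mul_apply, e1, MulAut.inv_apply_self]

/-- `N` normalizes `H` and `P`. -/
theorem hat_normal (hN : IsPGroup p N) (h : NCtx E p P) (hH : IsHat E p P H) :
    N ≤ Subgroup.normalizer (H : Set Ω) ∧ N ≤ Subgroup.normalizer (P : Set Ω) := by
  refine ⟨?_, le_normalizer h⟩
  obtain ⟨-, hHN, hinv⟩ := hat_basic hN h hH
  intro g hg
  rw [Subgroup.mem_set_normalizer_iff]
  intro x
  by_cases hx : x ∈ N
  · exact hinv N _ h.le (isMap_conj E le_rfl hg) x hx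
  · constructor
    · intro hxH
      exact absurd (hHN hxH) hx
    · intro hxH
      exfalso
      apply hx
      have h1 := N.mul_mem (N.mul_mem (N.inv_mem hg) (hHN hxH)) hg
      have h2 : g⁻¹ * (g * x * g⁻¹) * g = x := by group
      rwa [h2] at h1

end Cfsg.Agent.Lib.H89SatHat
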