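import Mathlib
import Cfsg.Agent.Lib.Helper89Sat0
import Cfsg.Agent.Lib.H89SatHat

set_option autoImplicit false

namespace Cfsg.Agent.Lib.H89SatHatG

open Cfsg Cfsg.FusionSystem Cfsg.Agent.Lib.Helper87Fusion Cfsg.Agent.Lib.Helper86Group
  Cfsg.Agent.Lib.Helper86Fusion Cfsg.Agent.Lib.Helper86Fusion2 Cfsg.Agent.Lib.Helper86Fusion3
  Cfsg.Agent.Lib.Helper87Fusion2 Cfsg.Agent.Lib.Helper87Mk Cfsg.Agent.Lib.Helper87NormSys
  Cfsg.Agent.Lib.Helper89Sat0
  Cfsg.Agent.Lib.H89SatHat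

variable {Ω : Type*} [Group Ω] {S : Subgroup Ω}

variable {N : Subgroup Ω} [Finite N] {p : ℕ} [Fact p.Prime] {E : FusionSystem N} {P H : Subgroup Ω}

/-- `H` is its only `E`-conjugate (by `hat_basic` and cardinality), hence (being good, as `P < H ≤ N`) fully automized and receptive. -/
theorem hat_good (hN : IsPGroup p N) (h : NCtx E p P) (hH : IsHat E p P H) (hlt : P < H) :
    E.IsFullyAutomized p H ∧ E.IsReceptive H ∧ ∀ f : Ω → Ω, IsMap E H f → f '' (H : Set Ω) = (H : Set Ω) := by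
  obtain ⟨hPH, hHN, hinv⟩ := H89SatHat.hat_basic hN h hH
  have himg : ∀ f : Ω → Ω, IsMap E H f → f '' (H : Set Ω) = (H : Set Ω) := by
    intro f hf
    haveI : Finite H :=
      Finite.of_injective (Subgroup.inclusion hHN) (Subgroup.inclusion_injective hHN)
    have hsub : f '' (H : Set Ω) ⊆ (H : Set Ω) := by
      rintro _ ⟨x, hx, rfl⟩
      exact (hinv H f hPH hf x hx).1 hx
    apply Set.eq_of_subset_of_ncard_le hsub _ (Set.toFinite _)
    rw [Set.ncard_image_of_injOn]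
    intro x hx y hy hxy
    exact hf.inj hx hy hxy
  obtain ⟨Q', hc, hfa, hrec⟩ := h.good H hlt hHN
  obtain ⟨f, hf, hfQ⟩ := isConj_iff.1 hc
  have hQ : Q' = H := SetLike.coe_injective (hfQ.symm.trans (himg f hf))
  rw [hQ] at hfa hrec
  exact ⟨hfa, hrec, himg⟩

end Cfsg.Agent.Lib.H89SatHatG
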