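import Mathlib
import Cfsg.Agent.Lib.Helper89Sat0
import Cfsg.Agent.Lib.H89SatHat
import Cfsg.Agent.Lib.H89SatHatG
import Cfsg.Agent.Lib.H89SatExt

set_option autoImplicit false

namespace Cfsg.Agent.Lib.H89SatFA

open Cfsg Cfsg.FusionSystem Cfsg.Agent.Lib.Helper87Fusion Cfsg.Agent.Lib.Helper86Group
  Cfsg.Agent.Lib.Helper86Fusion Cfsg.Agent.Lib.Helper86Fusion2 Cfsg.Agent.Lib.Helper86Fusion3
  Cfsg.Agent.Lib.Helper87Fusion2 Cfsg.Agent.Lib.Helper87Mk Cfsg.Agent.Lib.Helper87NormSys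
  Cfsg.Agent.Lib.Helper89Sat0
  Cfsg.Agent.Lib.H89SatHat Cfsg.Agent.Lib.H89SatHatG Cfsg.Agent.Lib.H89SatExt

variable {Ω : Type*} [Group Ω] {S : Subgroup Ω}

variable {N : Subgroup Ω} [Finite N] {p : ℕ} [Fact p.Prime] {E : FusionSystem N} {P H : Subgroup Ω}

/-- `P` is fully automized in `E`.
Proof: `ρ : Aut_E(H) → Aut_E(P)` restriction (`Helper86PPowerN.resAut`) is surjective by `hsurj`; `Aut_N(H)` is Sylow in `Aut_E(H)` (`hat_good`); the image of a Sylow subgroup under a surjection is Sylow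
(`Sylow.mapSurjective`), and `ρ(Aut_N(H)) = Aut_N(P)` (`N` normalizes `H` and `P`: `hat_normal`, `exists_conjAut`, `mem_autInducedBy_iff`). -/
theorem fa (hN : IsPGroup p N) (h : NCtx E p P) (hH : IsHat E p P H) (hlt : P < H)
    (hsurj : ∀ f : Ω → Ω, IsMap E P f → Ext E P H f) : E.IsFullyAutomized p P := by
  obtain ⟨hPH, hHN, -⟩ := hat_basic hN h hH
  obtain ⟨⟨-, RH, hRH⟩, -, hHH⟩ := hat_good hN h hH hlt
  obtain ⟨hNH, -⟩ := hat_normal hN h hH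
  have : Finite H := Finite.of_injective (Subgroup.inclusion hHN) (Subgroup.inclusion_injective hHN)
  have hinv : ∀ α ∈ E.autGroup H, ∀ x : H, (x : Ω) ∈ P → ((α x : H) : Ω) ∈ P := by
    intro α hα x hx
    have h1 := (mem_autGroup_iff_totA E hHN α).1 hα
    have h2 := h.inv H _ hPH h1
    have h3 := IsMap.mem_image h2 hx
    rwa [totA_apply] at h3
  set ρ := Cfsg.Agent.Lib.Helper86PPowerN.resAut E hPH hHN hinv with hρ
  have hρs : Function.Surjective ρ := by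
    rintro ⟨β, hβ⟩
    obtain ⟨g, hg, hgβ⟩ := hsurj _ ((mem_autGroup_iff_totA E h.le β).1 hβ)
    obtain ⟨α, hα, hαg⟩ := hg.exists_aut (hHH g hg)
    refine ⟨⟨α, hα⟩, ?_⟩
    apply Subtype.ext
    ext x
    rw [hρ, Cfsg.Agent.Lib.Helper86PPowerN.resAut_apply]
    change ((α ⟨x, hPH x.2⟩ : H) : Ω) = ((β x : P) : Ω)
    rw [hαg]
    change g (x : Ω) = _
    rw [hgβ x x.2, totA_apply]
  refine ⟨h.le, RH.mapSurjective hρs, ?_⟩
  rw [Sylow.coe_mapSurjective, hRH]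
  ext β
  rw [Subgroup.mem_map, Subgroup.mem_subgroupOf]
  constructor
  · rintro ⟨α, hα, rfl⟩
    rw [Subgroup.mem_subgroupOf] at hα
    obtain ⟨g, hg, hgα⟩ := (mem_autInducedBy_iff N H _).1 hα
    refine (mem_autInducedBy_iff N P _).2 ⟨g, hg, fun x => ?_⟩
    rw [hρ, Cfsg.Agent.Lib.Helper86PPowerN.resAut_apply, hgα]
  · intro hβ
    obtain ⟨g, hg, hgβ⟩ := (mem_autInducedBy_iff N P _).1 hβ
    obtain ⟨α, hα, hαg⟩ := exists_conjAut (K := N) (P := H) hg (hNH hg)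
    refine ⟨⟨α, autInducedBy_le_autGroup E hHN hα⟩, Subgroup.mem_subgroupOf.mpr hα, ?_⟩
    apply Subtype.ext
    ext x
    rw [hρ, Cfsg.Agent.Lib.Helper86PPowerN.resAut_apply, hgβ]
    change ((α ⟨x, hPH x.2⟩ : H) : Ω) = _
    rw [hαg]

end Cfsg.Agent.Lib.H89SatFA
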