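import Mathlib
import Cfsg.Agent.Lib.Helper89Sat0
import Cfsg.Agent.Lib.H89SatGrpC

set_option autoImplicit false

namespace Cfsg.Agent.Lib.H89SatGrpA

open Cfsg Cfsg.FusionSystem Cfsg.Agent.Lib.Helper87Fusion Cfsg.Agent.Lib.Helper86Group
  Cfsg.Agent.Lib.Helper86Fusion Cfsg.Agent.Lib.Helper86Fusion2 Cfsg.Agent.Lib.Helper86Fusion3
  Cfsg.Agent.Lib.Helper87Fusion2 Cfsg.Agent.Lib.Helper87Mk Cfsg.Agent.Lib.Helper87NormSys
  Cfsg.Agent.Lib.Helper89Sat0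

variable {Ω : Type*} [Group Ω] {S : Subgroup Ω}

/-- PURE GROUP THEORY (Frattini).  `Υ := ρ⁻¹(O) ⊴ A`, `Y ∩ Υ` is Sylow in `Υ`, so `A = Υ N_A(Y ∩ Υ)`; `Υ / (Υ ∩ ker ρ)` embeds in the `p`-group `O`, so `Υ = (Υ ∩ ker ρ)(Y ∩ Υ)`. -/
theorem frattini_decomp {A B : Type*} [Group A] [Finite A] [Group B] {p : ℕ} [Fact p.Prime]
    (Y : Sylow p A) (ρ : A →* B) (O : Subgroup B) (hO : IsPGroup p O)
    (hOn : ∀ a : A, ∀ b ∈ O, ρ a * b * (ρ a)⁻¹ ∈ O) (a : A) :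
    ∃ u y η : A, a = u * y * η ∧ ρ u = 1 ∧ y ∈ Y ∧ ρ y ∈ O ∧
      ∀ z ∈ Y, ρ z ∈ O → η * z * η⁻¹ ∈ Y := by
  have hp : p.Prime := Fact.out
  set U : Subgroup A := O.comap ρ with hU
  have hUn : U.Normal := by
    refine ⟨fun n hn g => ?_⟩
    change ρ (g * n * g⁻¹) ∈ O
    rw [map_mul, map_mul, map_inv]
    exact hOn g _ hn
  -- `Y ⊓ U` is a Sylow subgroup of `U`
  obtain ⟨γ, hγ⟩ := Cfsg.Agent.Lib.H89SatGrpC.sylow_inf_conj Y U
  have hUc : U.map (MulAut.conj γ).toMonoidHom = U := by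
    apply le_antisymm
    · rintro _ ⟨n, hn, rfl⟩
      exact hUn.conj_mem n hn γ
    · intro n hn
      refine ⟨γ⁻¹ * n * γ, ?_, ?_⟩
      · have := hUn.conj_mem n hn γ⁻¹
        rwa [inv_inv] at this
      · change γ * (γ⁻¹ * n * γ) * γ⁻¹ = n
        group
  rw [hUc] at hγ
  have hcard : Nat.card (((Y : Subgroup A) ⊓ U).subgroupOf U)
      = p ^ (Nat.card U).factorization p := by
    rw [← hγ]
    exact Nat.card_congr (Subgroup.subgroupOfEquivOfLe inf_le_right).toEquiv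
  set P : Sylow p U := Sylow.ofCard _ hcard with hP
  have hPmap : (P : Subgroup U).map U.subtype = (Y : Subgroup A) ⊓ U := by
    rw [hP, Sylow.coe_ofCard, Subgroup.subgroupOf_map_subtype, inf_assoc, inf_idem]
  have hfr := Sylow.normalizer_sup_eq_top P
  rw [hPmap, sup_comm] at hfr
  have ha : a ∈ ((U ⊔ Subgroup.normalizer (((Y : Subgroup A) ⊓ U : Subgroup A) : Set A)
      : Subgroup A) : Set A) := by
    rw [hfr]
    exact Subgroup.mem_top a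
  rw [Subgroup.normal_mul] at ha
  obtain ⟨v, hv, η, hη, rfl⟩ := ha
  -- the image of `P` is everything
  set ρ₁ : U →* B := ρ.comp U.subtype with hρ₁
  have hr : ρ₁.range ≤ O := by
    rintro _ ⟨w, rfl⟩
    exact w.2
  have hrp : IsPGroup p ρ₁.range := hO.to_le hr
  have htop : ((P.mapSurjective ρ₁.rangeRestrict_surjective : Sylow p ρ₁.range)
      : Subgroup ρ₁.range) = ⊤ :=
    ((P.mapSurjective ρ₁.rangeRestrict_surjective).is_maximal' (hrp.to_subgroup ⊤) le_top).symm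
  have hmem : ρ₁.rangeRestrict ⟨v, hv⟩ ∈ ((P.mapSurjective ρ₁.rangeRestrict_surjective
      : Sylow p ρ₁.range) : Subgroup ρ₁.range) := by
    rw [htop]
    exact Subgroup.mem_top _
  rw [Sylow.coe_mapSurjective] at hmem
  obtain ⟨y, hy, hyv⟩ := hmem
  have hyv' : ρ (y : A) = ρ v := congrArg Subtype.val hyv
  have hyY : (y : A) ∈ (Y : Subgroup A) ⊓ U := by
    rw [← hPmap]
    exact ⟨y, hy, rfl⟩
  refine ⟨v * (y : A)⁻¹, y, η, by group, by rw [map_mul, map_inv, hyv', mul_inv_cancel],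
    hyY.1, hyY.2, fun z hz hzO => ?_⟩
  have hz' : z ∈ (Y : Subgroup A) ⊓ U := ⟨hz, hzO⟩
  exact ((Subgroup.mem_set_normalizer_iff.mp hη z).mp hz').1

end Cfsg.Agent.Lib.H89SatGrpA
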