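import Mathlib
import Cfsg.Agent.Lib.Helper89Sat0
import Cfsg.Agent.Lib.H89SatNsys

set_option autoImplicit false

namespace Cfsg.Agent.Lib.H89SatHatEx

open Cfsg Cfsg.FusionSystem Cfsg.Agent.Lib.Helper87Fusion Cfsg.Agent.Lib.Helper86Group
  Cfsg.Agent.Lib.Helper86Fusion Cfsg.Agent.Lib.Helper86Fusion2 Cfsg.Agent.Lib.Helper86Fusion3
  Cfsg.Agent.Lib.Helper87Fusion2 Cfsg.Agent.Lib.Helper87Mk Cfsg.Agent.Lib.Helper87NormSys
  Cfsg.Agent.Lib.Helper89Sat0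
  Cfsg.Agent.Lib.H89SatNsys

variable {Ω : Type*} [Group Ω] {S : Subgroup Ω}

/-- there is `x ∈ N_S(Pm) \ Pm` with `c_x|Pm ∈ O_p(Aut_F(Pm))`.
Proof: (1) `Pm` not `F`-centric: some conjugate `P'` has `y ∈ C_S(P') \ P'`; `ν` from `hrecv`; `x = ν y ∈ C_S(Pm) \ Pm` (`map_centralizerIn`, injectivity), `α = 1`.
(2) `Pm` centric: `h.star` gives a conjugate `Q` and `β ∈ Aut_S(Q) ∩ O_p(Aut_F(Q))`, `β ∉ Inn Q`; `β = c_y`, `y ∈ N_S(Q)` (`mem_autInducedBy_iff`), `y ∉ Q`.  `ν` from `hrecv` for `Q`; `x = ν y ∉ Pm`;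
`c_x|Pm = ν β ν⁻¹` lies in `O_p(Aut_F(Pm))` (`Helper89Fusion2.exists_autConj_surj` + `pCore_map_le`).  Rewrite with `opAut_nsys_self`. -/
theorem exists_hat_elt [Finite S] {p : ℕ} [Fact p.Prime] (hS : IsPGroup p S) {F : FusionSystem S}
    {ℋ : Set (Subgroup Ω)} {n : ℕ} (h : Ctx F p ℋ n) {Pm : Subgroup Ω} (hPm : Pm ≤ S)
    (hPmℋ : Pm ∉ ℋ) (hrecv : Recv F Pm) :
    ∃ x ∈ normalizerIn S Pm, x ∉ Pm ∧ ∃ α ∈ opAut (nsys F Pm hPm) p Pm,
      ∀ y : Pm, ((α y : Pm) : Ω) = x * y * x⁻¹ := by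
  have key : ∃ x ∈ normalizerIn S Pm, x ∉ Pm ∧
      ∃ α ∈ (pCore p ↥(F.autGroup Pm)).map (F.autGroup Pm).subtype,
      ∀ y : Pm, ((α y : Pm) : Ω) = x * y * x⁻¹ := by
    by_cases hc : F.IsCentric Pm
    · obtain ⟨Q, hPQ, hnot⟩ := h.star Pm hc hPmℋ
      obtain ⟨β, hβ, hβInn⟩ := SetLike.not_le_iff_exists.1 hnot
      obtain ⟨hβS, hβO⟩ := Subgroup.mem_inf.1 hβ
      rw [← autInducedBy_normalizerIn_self] at hβS
      obtain ⟨y, hyN, hy⟩ := (mem_autInducedBy_iff _ Q β).1 hβS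
      have hQS : Q ≤ S := isConj_le_right hPQ
      have hyQ : y ∉ Q := fun hyQ => hβInn ((mem_inn_iff β).2 ⟨y, hyQ, hy⟩)
      obtain ⟨ν, hν, hνQ⟩ := hrecv Q (isConj_symm hPQ)
      have hQN : Q ≤ normalizerIn S Q := le_normalizerIn hQS
      have hxN : ν y ∈ normalizerIn S Pm := map_mem_normalizerIn hν hQN hνQ hyN hyN
      have hxP : ν y ∉ Pm := by
        intro hx
        obtain ⟨u, hu, hux⟩ := IsMap.exists_of_mem_image hνQ hx
        have := hν.inj (hQN hu) hyN hux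
        exact hyQ (this ▸ hu)
      obtain ⟨c, hcs, hc'⟩ := Helper89Fusion2.exists_autConj_surj (hν.restrict hQN) hνQ
      obtain ⟨β', hβ', rfl⟩ := hβO
      have h1 : c β' ∈ pCore p (F.autGroup Pm) :=
        Helper89Fusion2.pCore_map_le c hcs ⟨β', hβ', rfl⟩
      refine ⟨ν y, hxN, hxP, ((c β' : F.autGroup Pm) : MulAut Pm), ⟨_, h1, rfl⟩, fun w => ?_⟩
      obtain ⟨u, hu, huw⟩ := IsMap.exists_of_mem_image hνQ w.2
      have hmem : ν ((⟨u, hu⟩ : Q) : Ω) ∈ Pm := by rw [huw]; exact w.2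
      have hw : w = ⟨ν ((⟨u, hu⟩ : Q) : Ω), hmem⟩ := Subtype.ext huw.symm
      have h2 := hc' β' ⟨u, hu⟩ hmem
      rw [hw, h2]
      have h3 := hy ⟨u, hu⟩
      have h4 : ((((β' : F.autGroup Q) : MulAut Q) ⟨u, hu⟩ : Q) : Ω) = y * u * y⁻¹ := h3
      rw [h4, hν.map_conj hyN (hQN hu)]
    · have : ∃ P', F.IsConj Pm P' ∧ ¬ centralizerIn S P' ≤ P' := by
        by_contra hcon
        push_neg at hcon
        exact hc ⟨hPm, hcon⟩
      obtain ⟨P', hPP', hnot⟩ := this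
      obtain ⟨y, hyC, hyP⟩ := SetLike.not_le_iff_exists.1 hnot
      have hP'S : P' ≤ S := isConj_le_right hPP'
      have hyN : y ∈ normalizerIn S P' := centralizerIn_le_normalizerIn S P' hyC
      obtain ⟨ν, hν, hνQ⟩ := hrecv P' (isConj_symm hPP')
      have hQN : P' ≤ normalizerIn S P' := le_normalizerIn hP'S
      have hxC : ν y ∈ centralizerIn S Pm := map_centralizerIn hν hQN hνQ hyN hyC
      have hxP : ν y ∉ Pm := by
        intro hx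
        obtain ⟨u, hu, hux⟩ := IsMap.exists_of_mem_image hνQ hx
        have := hν.inj (hQN hu) hyN hux
        exact hyP (this ▸ hu)
      refine ⟨ν y, centralizerIn_le_normalizerIn S Pm hxC, hxP, 1, Subgroup.one_mem _, fun w => ?_⟩
      have h5 := (mem_centralizerIn.1 hxC).2 w w.2
      show (w : Ω) = _
      rw [← h5]; group
  rw [opAut_nsys_self]
  exact key

end Cfsg.Agent.Lib.H89SatHatEx
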