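import Mathlib
import Cfsg.Agent.Lib.Helper89Sat0
import Cfsg.Agent.Lib.H89SatHat
import Cfsg.Agent.Lib.H89SatHatG
import Cfsg.Agent.Lib.H89SatExt

set_option autoImplicit false

namespace Cfsg.Agent.Lib.H89SatKeta

open Cfsg Cfsg.FusionSystem Cfsg.Agent.Lib.Helper87Fusion Cfsg.Agent.Lib.Helper86Group
  Cfsg.Agent.Lib.Helper86Fusion Cfsg.Agent.Lib.Helper86Fusion2 Cfsg.Agent.Lib.Helper86Fusion3
  Cfsg.Agent.Lib.Helper87Fusion2 Cfsg.Agent.Lib.Helper87Mk Cfsg.Agent.Lib.Helper87NormSys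
  Cfsg.Agent.Lib.Helper89Sat0
  Cfsg.Agent.Lib.H89SatHat Cfsg.Agent.Lib.H89SatHatG Cfsg.Agent.Lib.H89SatExt

variable {Ω : Type*} [Group Ω] {S : Subgroup Ω}

variable {N : Subgroup Ω} [Finite N] {p : ℕ} [Fact p.Prime] {E : FusionSystem N} {P H : Subgroup Ω}

/-- THE `η`-PART OF (K').  `η ∈ Aut_E(R)` normalizes `Aut_{H ∩ N_N(R)}(R)` inside `Aut_N(R)`.  Then `η|P` extends to `H`.
Proof: let `M := (H ⊔ R) ⊓ normalizer R`.  `H ⊴ N` (`hat_normal`), so every `g ∈ M` is `g = h r`, `r ∈ R`, `h ∈ H ∩ N_N(R)`; by `hη` `η c_h η⁻¹ = c_{h'}` on `R`, so `g` satisfies the extender condition with `h' η(r) ∈ N`;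
`isReceptive_extend` gives an `E`-map `η̂` on `M` extending `η`.  `M > R` (`exists_normalizer_gt` in the `p`-group `H ⊔ R > R`, as `H ≰ R`), so IH gives `Ext η̂`, hence `Ext η` (`ext_congr`, `P ≤ R`). -/
theorem ext_of_eta (hN : IsPGroup p N) (h : NCtx E p P) (hH : IsHat E p P H) (hlt : P < H)
    {R : Subgroup Ω} (hPR : P < R) (hRN : R ≤ N) (hHR : ¬ H ≤ R) (hrec : E.IsReceptive R)
    (IH : ∀ (R' : Subgroup Ω) (f' : Ω → Ω), Nat.card R < Nat.card R' → P < R' → IsMap E R' f' →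
      Ext E P H f')
    {η : Ω → Ω} (hη : IsMap E R η) (hηR : η '' (R : Set Ω) = (R : Set Ω))
    (hnorm : ∀ g ∈ H, g ∈ Subgroup.normalizer (R : Set Ω) →
      ∃ g' ∈ N, ∀ x ∈ R, η (g * x * g⁻¹) = g' * η x * g'⁻¹) : Ext E P H η := by
  classical
  obtain ⟨hPH, hHN, -⟩ := hat_basic hN h hH
  obtain ⟨hNH, -⟩ := hat_normal hN h hH
  have hHRN : H ⊔ R ≤ N := sup_le hHN hRN
  haveI : Finite (H ⊔ R : Subgroup Ω) := finite_of_le hHRN
  have hltR : R < H ⊔ R := lt_of_le_of_ne le_sup_right (fun he => hHR (he ▸ le_sup_left))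
  obtain ⟨x₀, hx₀, hx₀R, hx₀N⟩ := exists_normalizer_gt (hN.to_le hHRN) hltR
  let M : Subgroup Ω := (H ⊔ R) ⊓ Subgroup.normalizer (R : Set Ω)
  have hRM : R ≤ M := le_inf le_sup_right Subgroup.le_normalizer
  have hMN : M ≤ N := inf_le_left.trans hHRN
  -- decomposition of the elements of `H ⊔ R`
  have hdec : ∀ g ∈ H ⊔ R, ∃ a ∈ H, ∃ r ∈ R, g = a * r := by
    intro g hg
    have hn : R ≤ Subgroup.normalizer (H : Set Ω) := hRN.trans hNH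
    have h1 : (g : Ω) ∈ ((H ⊔ R : Subgroup Ω) : Set Ω) := hg
    rw [Subgroup.coe_mul_of_right_le_normalizer_left H R hn] at h1
    obtain ⟨a, ha, r, hr, rfl⟩ := Set.mem_mul.1 h1
    exact ⟨a, ha, r, hr, rfl⟩
  have hext : ∀ g ∈ M, g ∈ N ∧ g ∈ Subgroup.normalizer (R : Set Ω) ∧
      ∃ k ∈ N, ∀ x ∈ R, η (g * x * g⁻¹) = k * η x * k⁻¹ := by
    intro g hg
    refine ⟨hMN hg, hg.2, ?_⟩
    obtain ⟨a, ha, r, hr, rfl⟩ := hdec g hg.1
    have haN : a ∈ Subgroup.normalizer (R : Set Ω) := by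
      have h1 : a = (a * r) * r⁻¹ := by group
      rw [h1]
      exact Subgroup.mul_mem _ hg.2 (Subgroup.inv_mem _ (Subgroup.le_normalizer hr))
    obtain ⟨a', ha'N, ha'⟩ := hnorm a ha haN
    refine ⟨a' * η r, N.mul_mem ha'N (hη.mem hr), fun x hx => ?_⟩
    have h2 : r * x * r⁻¹ ∈ R := R.mul_mem (R.mul_mem hr hx) (R.inv_mem hr)
    have h3 : a * r * x * (a * r)⁻¹ = a * (r * x * r⁻¹) * a⁻¹ := by group
    rw [h3, ha' _ h2, hη.map_conj hr hx]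
    group
  obtain ⟨η', hη', hη'η⟩ := isReceptive_extend hrec hη hηR hext
  have hltM : R < M := lt_of_le_of_ne hRM (fun he => hx₀R (he ▸ (⟨hx₀, hx₀N⟩ : x₀ ∈ M)))
  haveI : Finite M := finite_of_le hMN
  have hE := IH M η' (card_lt_of_lt hltM) (lt_of_lt_of_le hPR hRM) hη'
  exact ext_congr hE (fun x hx => hη'η x (hPR.le hx))

end Cfsg.Agent.Lib.H89SatKeta
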