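import Mathlib
import Cfsg.Agent.Lib.Helper89Sat0
import Cfsg.Agent.Lib.H89SatHat
import Cfsg.Agent.Lib.H89SatHatG
import Cfsg.Agent.Lib.H89SatExt
import Cfsg.Agent.Lib.H89SatGrpA
import Cfsg.Agent.Lib.H89SatKeta

set_option autoImplicit false

namespace Cfsg.Agent.Lib.H89SatKaut

open Cfsg Cfsg.FusionSystem Cfsg.Agent.Lib.Helper87Fusion Cfsg.Agent.Lib.Helper86Group
  Cfsg.Agent.Lib.Helper86Fusion Cfsg.Agent.Lib.Helper86Fusion2 Cfsg.Agent.Lib.Helper86Fusion3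
  Cfsg.Agent.Lib.Helper87Fusion2 Cfsg.Agent.Lib.Helper87Mk Cfsg.Agent.Lib.Helper87NormSys
  Cfsg.Agent.Lib.Helper89Sat0
  Cfsg.Agent.Lib.H89SatHat Cfsg.Agent.Lib.H89SatHatG Cfsg.Agent.Lib.H89SatExt Cfsg.Agent.Lib.H89SatGrpA Cfsg.Agent.Lib.H89SatKeta

variable {Ω : Type*} [Group Ω] {S : Subgroup Ω}

variable {N : Subgroup Ω} [Finite N] {p : ℕ} [Fact p.Prime] {E : FusionSystem N} {P H : Subgroup Ω}

/-- AUTOMORPHISM CASE OF (K').  `R` f.a. + receptive in `E`, `P < R ≤ N`, `H ≰ R`, and (IH) all `E`-maps on larger subgroups restrict on `P` to restrictions of `E`-maps of `H`.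
Then the same holds for every `γ ∈ Aut_E(R)`.
Proof: `A = Aut_E(R)`, `Y = Aut_N(R)` its Sylow subgroup (hfa), `ρ : A → Aut_E(P)` (or `MulAut P`) the restriction (`Helper86PPowerN.resAut`, invariance of `P` from `h.inv`), `O = O_p(Aut_E(P))`.
`frattini_decomp`: `γ = u y η`.  * `ρ u = 1`: `Ext` via the identity of `H`.  * `y = c_x|R`, `x ∈ N` (`mem_autInducedBy_iff`), `ρ y = c_x|P ∈ O`, so `x ∈ H` (`IsHat`); `c_x` on `H` is an `E`-map: `Ext`.
* `η`: for `g ∈ H ∩ N_N(R)`: `z = c_g|R ∈ Y`, `ρ z = c_g|P ∈ O`, so `η z η⁻¹ ∈ Y` is `c_{g'}|R`, `g' ∈ N`: this is the hypothesis `hnorm` of `ext_of_eta`.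
Combine with `ext_comp`, `ext_congr` (`hat_good` gives `hHH`). -/
theorem ext_of_aut (hN : IsPGroup p N) (h : NCtx E p P) (hH : IsHat E p P H) (hlt : P < H)
    {R : Subgroup Ω} (hPR : P < R) (hRN : R ≤ N) (hHR : ¬ H ≤ R)
    (hfa : E.IsFullyAutomized p R) (hrec : E.IsReceptive R)
    (IH : ∀ (R' : Subgroup Ω) (f' : Ω → Ω), Nat.card R < Nat.card R' → P < R' → IsMap E R' f' →
      Ext E P H f')
    {γ : Ω → Ω} (hγ : IsMap E R γ) (hγR : γ '' (R : Set Ω) = (R : Set Ω)) : Ext E P H γ := by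
  classical
  obtain ⟨hPH, hHN, -⟩ := hat_basic hN h hH
  obtain ⟨-, -, hHH⟩ := hat_good hN h hH hlt
  have hPR' : P ≤ R := hPR.le
  haveI : Finite R := finite_of_le hRN
  have hinvA : ∀ α ∈ E.autGroup R, ∀ x : R, (x : Ω) ∈ P → ((α x : R) : Ω) ∈ P := by
    intro α hα x hx
    have hm : IsMap E R (totA α) := (mem_autGroup_iff_totA E hRN α).1 hα
    have h1 := h.inv R _ hPR' hm
    have h2 : totA α x ∈ P := IsMap.mem_image h1 hx
    rwa [totA_apply] at h2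
  let ρ := Cfsg.Agent.Lib.Helper86PPowerN.resAut E hPR' hRN hinvA
  have hρ : ∀ (a : E.autGroup R) (x : P), (((ρ a : MulAut P) x : P) : Ω)
      = ((a : MulAut R) ⟨x, hPR' x.2⟩ : R) := fun a x => rfl
  obtain ⟨-, Y, hY⟩ := hfa
  let O : Subgroup (E.autGroup P) := pCore p (E.autGroup P)
  have hO : IsPGroup p O := pCore_isPGroup p _
  have hOn : ∀ a : E.autGroup R, ∀ b ∈ O, ρ a * b * (ρ a)⁻¹ ∈ O :=
    fun a b hb => (Cfsg.Agent.Lib.Helper87Fusion3.pCore_normal p _).conj_mem b hb (ρ a)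
  obtain ⟨γ', hγ'A, hγ'⟩ := hγ.exists_aut hγR
  obtain ⟨u, y, η, hdec, hu, hy, hyO, hη⟩ := frattini_decomp Y ρ O hO hOn ⟨γ', hγ'A⟩
  have hmemY : ∀ a : E.autGroup R, a ∈ Y ↔ (a : MulAut R) ∈ autInducedBy N R := by
    intro a
    have h1 : a ∈ Y ↔ a ∈ (Y : Subgroup (E.autGroup R)) := Iff.rfl
    rw [h1, hY, Subgroup.mem_subgroupOf]
  -- `u`
  have hEu : Ext E P H (totA (u : MulAut R)) := by
    refine ⟨id, isMap_id E hHN, fun x hx => ?_⟩
    have h1 := hρ u ⟨x, hx⟩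
    rw [hu] at h1
    rw [totA_of_mem _ (hPR' hx), ← h1]
    rfl
  -- `y`
  obtain ⟨g, hgN, hg⟩ := (mem_autInducedBy_iff N R _).1 ((hmemY y).1 hy)
  have hEy : Ext E P H (totA (y : MulAut R)) := by
    refine ⟨fun x => g * x * g⁻¹, isMap_conj E hHN hgN, fun x hx => ?_⟩
    rw [totA_of_mem _ (hPR' hx), hg]
  -- `η`
  have hEη : Ext E P H (totA (η : MulAut R)) := by
    apply ext_of_eta hN h hH hlt hPR hRN hHR hrec IH
      ((mem_autGroup_iff_totA E hRN _).1 η.2) (totA_image _)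
    intro k hkH hkR
    obtain ⟨z, hz, hzk⟩ := exists_conjAut (K := N) (hHN hkH) hkR
    have hzA : z ∈ E.autGroup R := autInducedBy_le_autGroup E hRN hz
    have hzY : (⟨z, hzA⟩ : E.autGroup R) ∈ Y := (hmemY _).2 hz
    have hzO : ρ ⟨z, hzA⟩ ∈ O := by
      obtain ⟨-, α, ⟨a, haO, rfl⟩, hα⟩ := (hH k).1 hkH
      have : ρ ⟨z, hzA⟩ = a := by
        apply Subtype.ext
        apply MulEquiv.ext
        intro x
        apply Subtype.ext
        rw [hρ]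
        show ((z ⟨x, hPR' x.2⟩ : R) : Ω) = _
        rw [hzk]
        exact (hα x).symm
      rw [this]; exact haO
    obtain ⟨k', hk'N, hk'⟩ := (mem_autInducedBy_iff N R _).1 ((hmemY _).1 (hη _ hzY hzO))
    refine ⟨k', hk'N, fun x hx => ?_⟩
    have h1 := hk' ((η : MulAut R) ⟨x, hx⟩)
    have h2 : ((η * ⟨z, hzA⟩ * η⁻¹ : E.autGroup R) : MulAut R) ((η : MulAut R) ⟨x, hx⟩)
        = (η : MulAut R) (z ⟨x, hx⟩) := by
      simp [MulAut.mul_apply]
    rw [h2] at h1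
    have h3 : k * x * k⁻¹ ∈ R := by
      have := (z ⟨x, hx⟩).2
      rwa [hzk] at this
    have h4 : z ⟨x, hx⟩ = ⟨k * x * k⁻¹, h3⟩ := Subtype.ext (hzk _)
    rw [totA_of_mem _ h3, totA_of_mem _ hx, ← h4, h1]
  have hall := ext_comp h hPH hHH (ext_comp h hPH hHH hEη hEy) hEu
  refine ext_congr hall (fun x hx => ?_)
  have hxR := hPR' hx
  have h1 : γ x = ((γ' ⟨x, hxR⟩ : R) : Ω) := (hγ' ⟨x, hxR⟩).symm
  have h2 : γ' = (u : MulAut R) * (y : MulAut R) * (η : MulAut R) := by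
    have := congrArg Subtype.val hdec
    simpa using this
  rw [h1, h2]
  show totA (u : MulAut R) (totA (y : MulAut R) (totA (η : MulAut R) x)) = _
  rw [totA_of_mem _ hxR, totA_apply, totA_apply]
  rfl

end Cfsg.Agent.Lib.H89SatKaut
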