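import Mathlib
import Cfsg.Agent.Lib.Helper89Sat0
import Cfsg.Agent.Lib.H89SatHat
import Cfsg.Agent.Lib.H89SatHatG
import Cfsg.Agent.Lib.H89SatExt
import Cfsg.Agent.Lib.H89SatKaut

set_option autoImplicit false

namespace Cfsg.Agent.Lib.H89SatKind

open Cfsg Cfsg.FusionSystem Cfsg.Agent.Lib.Helper87Fusion Cfsg.Agent.Lib.Helper86Group
  Cfsg.Agent.Lib.Helper86Fusion Cfsg.Agent.Lib.Helper86Fusion2 Cfsg.Agent.Lib.Helper86Fusion3
  Cfsg.Agent.Lib.Helper87Fusion2 Cfsg.Agent.Lib.Helper87Mk Cfsg.Agent.Lib.Helper87NormSys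
  Cfsg.Agent.Lib.Helper89Sat0
  Cfsg.Agent.Lib.H89SatHat Cfsg.Agent.Lib.H89SatHatG Cfsg.Agent.Lib.H89SatExt Cfsg.Agent.Lib.H89SatKaut

variable {Ω : Type*} [Group Ω] {S : Subgroup Ω}

variable {N : Subgroup Ω} [Finite N] {p : ℕ} [Fact p.Prime] {E : FusionSystem N} {P H : Subgroup Ω}

theorem lt_normalizerIn (hN : IsPGroup p N) {R : Subgroup Ω} (hR : R < N) :
    R < normalizerIn N R := by
  obtain ⟨x, hxN, hxR, hxn⟩ := exists_normalizer_gt hN hR
  refine lt_of_le_of_ne (le_normalizerIn hR.le) (fun e => hxR ?_)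
  rw [e]
  exact ⟨hxN, hxn⟩

/-- (K').  Every `E`-map on a subgroup `R > P` restricts on `P` to the restriction of an `E`-map of
`H`. -/
theorem ext_of_map (hN : IsPGroup p N) (h : NCtx E p P) (hH : IsHat E p P H) (hlt : P < H) :
    ∀ (R : Subgroup Ω) (f : Ω → Ω), P < R → IsMap E R f → Ext E P H f := by
  obtain ⟨hPH, hHN, hHinv⟩ := hat_basic hN h hH
  obtain ⟨hHfa, hHrec, hHH⟩ := hat_good hN h hH hlt
  have main : ∀ k : ℕ, ∀ (R : Subgroup Ω) (f : Ω → Ω), Nat.card N ≤ Nat.card R + k → P < R →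
      IsMap E R f → Ext E P H f := by
    intro k
    induction k with
    | zero =>
      intro R f hc hPR hf
      have e : R = N := Subgroup.eq_of_le_of_card_ge hf.le (by simpa using hc)
      exact ⟨f, hf.restrict (e ▸ hHN), fun _ _ => rfl⟩
    | succ k ih =>
      intro R f hc hPR hf
      by_cases hHR : H ≤ R
      · exact ⟨f, hf.restrict hHR, fun _ _ => rfl⟩
      have hRN : R ≤ N := hf.le
      have hRlt : R < N := lt_of_le_of_ne hRN (fun e => hHR (e ▸ hHN))
      have IH : ∀ (R' : Subgroup Ω) (f' : Ω → Ω), Nat.card R < Nat.card R' → P < R' →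
          IsMap E R' f' → Ext E P H f' := fun R' f' hc' hP' hf' => ih R' f' (by omega) hP' hf'
      obtain ⟨R₁, hRR₁, hfa, hrec⟩ := h.good R hPR hRN
      obtain ⟨fR, hfR⟩ := hf.exists_image
      have hfRN : fR ≤ N := hf.image_le hfR
      have hcfR : Nat.card fR = Nat.card R := hf.card_image hfR
      have hcRN : Nat.card R < Nat.card N := card_lt_of_lt hRlt
      have hfRlt : fR < N := lt_of_le_of_ne hfRN (fun e => by rw [e] at hcfR; omega)
      have hconj2 : E.IsConj fR R₁ :=
        isConj_trans (isConj_symm (isConj_iff.2 ⟨f, hf, hfR⟩)) hRR₁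
      obtain ⟨a, ha, haR, haN⟩ := exists_normalizer_map hN E R₁ R hfa hrec hRR₁
      obtain ⟨a', ha', ha'R, ha'N⟩ := exists_normalizer_map hN E R₁ fR hfa hrec hconj2
      have hfinN : ∀ X : Subgroup Ω, Finite (normalizerIn N X) := fun X =>
        finite_of_le (normalizerIn_le N X)
      have hR1 : R < normalizerIn N R := lt_normalizerIn hN hRlt
      have hR2 : fR < normalizerIn N fR := lt_normalizerIn hN hfRlt
      have hc1 : Nat.card R < Nat.card (normalizerIn N R) := by
        have := hfinN R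
        exact card_lt_of_lt hR1
      have hc2 : Nat.card R < Nat.card (normalizerIn N fR) := by
        have := hfinN fR
        rw [← hcfR]
        exact card_lt_of_lt hR2
      have hfP : f '' (P : Set Ω) = (P : Set Ω) := h.inv R f hPR.le hf
      have hPfR : P ≤ fR := fun x hx => by
        obtain ⟨y, hy, rfl⟩ := IsMap.exists_of_mem_image hfP hx
        exact IsMap.mem_image hfR (hPR.le hy)
      have hEa : Ext E P H a := IH _ a hc1 (hPR.trans hR1) ha
      have hEa' : Ext E P H a' := IH _ a' hc2 (lt_of_le_of_lt hPfR hR2) ha'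
      have haR' : IsMap E R a := ha.restrict hR1.le
      obtain ⟨ai, hai, hai1, hai2, hai3⟩ := haR'.inv haR
      have hR₁N : R₁ ≤ N := haR'.image_le haR
      have hcR₁ : Nat.card R₁ = Nat.card R := haR'.card_image haR
      have haP : a '' (P : Set Ω) = (P : Set Ω) := h.inv _ a (hPR.trans hR1).le ha
      have hPR₁le : P ≤ R₁ := fun x hx => by
        obtain ⟨y, hy, rfl⟩ := IsMap.exists_of_mem_image haP hx
        exact IsMap.mem_image haR (hPR.le hy)
      have hfinR : Finite R := finite_of_le hRN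
      have hcPR : Nat.card P < Nat.card R := card_lt_of_lt hPR
      have hPR₁ : P < R₁ := lt_of_le_of_ne hPR₁le (fun e => by rw [← e] at hcR₁; omega)
      have hHR₁ : ¬ H ≤ R₁ := by
        intro hle
        apply hHR
        have hfinH : Finite H := finite_of_le hHN
        have hmem : ∀ x ∈ H, ai x ∈ R ⊓ H := by
          intro y hy
          have hyR : ai y ∈ R := IsMap.mem_image hai3 (hle hy)
          refine ⟨hyR, ?_⟩
          refine (hHinv _ a (hPR.trans hR1).le ha (ai y) (hR1.le hyR)).2 ?_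
          rw [hai2 y (hle hy)]
          exact hy
        have hcard : Nat.card H ≤ Nat.card (R ⊓ H : Subgroup Ω) :=
          card_le_of_isMap (hai.restrict hle) (inf_le_left.trans hRN) hmem
        have e : R ⊓ H = H := Subgroup.eq_of_le_of_card_ge inf_le_right hcard
        rw [← e]
        exact inf_le_left
      have hγ : IsMap E R₁ (fun y => a' (f (ai y))) :=
        (hai.comp hf (fun y hy => IsMap.mem_image hai3 hy)).comp (ha'.restrict hR2.le)
          (fun y hy => IsMap.mem_image hfR (IsMap.mem_image hai3 hy))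
      have hγR : (fun y => a' (f (ai y))) '' (R₁ : Set Ω) = (R₁ : Set Ω) := by
        have e1 : (fun y => a' (f (ai y))) '' (R₁ : Set Ω) = a' '' (f '' (ai '' (R₁ : Set Ω))) := by
          rw [Set.image_image, Set.image_image]
        rw [e1, hai3, hfR, ha'R]
      have hEγ : Ext E P H (fun y => a' (f (ai y))) :=
        ext_of_aut hN h hH hlt hPR₁ hR₁N hHR₁ hfa hrec
          (fun R' f' hc' hP' hf' => IH R' f' (by omega) hP' hf') hγ hγR
      obtain ⟨M, hM⟩ := ha'.exists_image
      obtain ⟨a'i, ha'i, ha'i1, -, -⟩ := ha'.inv hM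
      have hEa'i : Ext E P H a'i :=
        ext_inv h hPH hHH hEa' (fun x hx => ha'i1 x (hR2.le (hPfR hx)))
      have hfin := ext_comp h hPH hHH (ext_comp h hPH hHH hEa hEγ) hEa'i
      refine ext_congr hfin (fun x hx => ?_)
      show a'i (a' (f (ai (a x)))) = f x
      rw [hai1 x (hPR.le hx), ha'i1 _ (hR2.le (IsMap.mem_image hfR (hPR.le hx)))]
  intro R f hPR hf
  exact main (Nat.card N) R f (by omega) hPR hf

end Cfsg.Agent.Lib.H89SatKind
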