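import Mathlib
import Cfsg.Agent.Lib.Helper89Sat0
import Cfsg.Agent.Lib.H89SatNsys
import Cfsg.Agent.Lib.H89SatGen
import Cfsg.Agent.Lib.H89SatC

set_option autoImplicit false

namespace Cfsg.Agent.Lib.H89SatN1

open Cfsg Cfsg.FusionSystem Cfsg.Agent.Lib.Helper87Fusion Cfsg.Agent.Lib.Helper86Group
  Cfsg.Agent.Lib.Helper86Fusion Cfsg.Agent.Lib.Helper86Fusion2 Cfsg.Agent.Lib.Helper86Fusion3
  Cfsg.Agent.Lib.Helper87Fusion2 Cfsg.Agent.Lib.Helper87Mk Cfsg.Agent.Lib.Helper87NormSys
  Cfsg.Agent.Lib.Helper89Sat0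
  Cfsg.Agent.Lib.H89SatNsys Cfsg.Agent.Lib.H89SatGen Cfsg.Agent.Lib.H89SatC

variable {Ω : Type*} [Group Ω] {S : Subgroup Ω}

/-- STEP 1.  A fully normalized `Pm ∉ ℋ` of order `n` receives the normalizers of all its conjugates.
Proof: `A P := ∃ ν, IsMap F (N_S P) ν ∧ ν '' P = Pm`.  `gen_induction` with `C P f := ∀ P', f '' P = P' → (A P ↔ A P')`
(congr/comp/inv are formal).  Base: `f` on `R > P`; `R₁ := R ⊓ N_S(P) > P` (`exists_normalizer_gt` in the `p`-group `R`), `f(R₁) ≤ N_S(fP)`;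
if `A (fP)` with `ν'` then `ν' ∘ f` on `R₁` is a link, `claimC` gives `A P`; conversely use the inverse of `f` on `f(R₁) > f(P)`.
Finally `A Pm` (identity) and every conjugate `P` has an `F`-iso `P → Pm`; `P ∉ ℋ`, `|P| = n`. -/
theorem recv [Finite S] {p : ℕ} [Fact p.Prime] (hS : IsPGroup p S) {F : FusionSystem S}
    {ℋ : Set (Subgroup Ω)} {n : ℕ} (h : Ctx F p ℋ n) {Pm : Subgroup Ω}
    (hfn : F.IsFullyNormalized Pm) (hcard : Nat.card Pm = n) (hPm : Pm ∉ ℋ) : Recv F Pm := by
  have hbase1 : ∀ (P P' R : Subgroup Ω) (f : Ω → Ω), P < R → IsMap F R f →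
      f '' (P : Set Ω) = (P' : Set Ω) →
      (∃ ν : Ω → Ω, IsMap F (normalizerIn S P') ν ∧ ν '' (P' : Set Ω) = (Pm : Set Ω)) →
      (∃ ν : Ω → Ω, IsMap F (normalizerIn S P) ν ∧ ν '' (P : Set Ω) = (Pm : Set Ω)) := by
    intro P P' R f hPR hf hP' hA
    obtain ⟨ν', hν', hν'P⟩ := hA
    have hRS : R ≤ S := hf.le
    have hPS : P ≤ S := hPR.le.trans hRS
    have hfin : Finite R := finite_of_le hRS
    have hpg : IsPGroup p R := hS.to_le hRS
    obtain ⟨x, hxR, hxP, hxN⟩ := exists_normalizer_gt hpg hPR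
    have hlt : P < R ⊓ normalizerIn S P := by
      refine lt_of_le_of_ne (le_inf hPR.le (le_normalizerIn hPS)) ?_
      intro he
      apply hxP
      rw [he]
      exact ⟨hxR, ⟨hRS hxR, hxN⟩⟩
    have hf1 : IsMap F (R ⊓ normalizerIn S P) f := hf.restrict inf_le_left
    have hcomp : IsMap F (R ⊓ normalizerIn S P) (fun x => ν' (f x)) :=
      hf1.comp hν' (fun x hx => map_mem_normalizerIn hf hPR.le hP' hx.1 hx.2)
    exact claimC hS F h.good hfn hcard hlt inf_le_right hcomp (image_comp_eq hP' hν'P)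
  have key : ∀ (P : Subgroup Ω) (f : Ω → Ω), Nat.card P = n → P ∉ ℋ → IsMap F P f →
      ∀ P' : Subgroup Ω, f '' (P : Set Ω) = (P' : Set Ω) →
      ((∃ ν : Ω → Ω, IsMap F (normalizerIn S P) ν ∧ ν '' (P : Set Ω) = (Pm : Set Ω)) ↔
       (∃ ν : Ω → Ω, IsMap F (normalizerIn S P') ν ∧ ν '' (P' : Set Ω) = (Pm : Set Ω))) := by
    intro P f hP hPℋ hf
    refine gen_induction h (fun P f => ∀ P' : Subgroup Ω, f '' (P : Set Ω) = (P' : Set Ω) →
      ((∃ ν : Ω → Ω, IsMap F (normalizerIn S P) ν ∧ ν '' (P : Set Ω) = (Pm : Set Ω)) ↔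
       (∃ ν : Ω → Ω, IsMap F (normalizerIn S P') ν ∧ ν '' (P' : Set Ω) = (Pm : Set Ω))))
      ?_ ?_ ?_ ?_ hP hPℋ hf
    · intro P f g hfg hC P' hP'
      exact hC P' ((Set.image_congr hfg).trans hP')
    · intro P Q f g _ _ hf hfQ hg hCf hCg P' hP'
      refine (hCf Q hfQ).trans (hCg P' ?_)
      rw [← hP', ← hfQ, Set.image_image]
    · intro P Q f g _ _ hf hfQ hg hgf hCf P' hP'
      have hPP' : P' = P := by
        apply SetLike.coe_injective
        rw [← hP', ← hfQ, Set.image_image]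
        ext x
        constructor
        · rintro ⟨y, hy, rfl⟩
          beta_reduce
          rw [hgf y hy]
          exact hy
        · intro hx
          exact ⟨x, hx, hgf x hx⟩
      rw [hPP']
      exact (hCf Q hfQ).symm
    · intro P R f _ _ hPR hf P' hP'
      constructor
      · intro hA
        obtain ⟨R', hR'⟩ := hf.exists_image
        obtain ⟨g, hg, hgf, hfg, hgR⟩ := hf.inv hR'
        have hP'R' : P' < R' := by
          refine lt_of_le_of_ne (image_le_image hPR.le hP' hR') ?_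
          intro he
          apply hPR.ne
          apply le_antisymm hPR.le
          intro x hx
          have h1 : f x ∈ P' := by rw [he]; exact IsMap.mem_image hR' hx
          obtain ⟨u, hu, hux⟩ := IsMap.exists_of_mem_image hP' h1
          have := hf.inj (hPR.le hu) hx hux
          exact this ▸ hu
        have hgP' : g '' (P' : Set Ω) = (P : Set Ω) := by
          rw [← hP', Set.image_image]
          ext x
          constructor
          · rintro ⟨y, hy, rfl⟩
            beta_reduce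
            rw [hgf y (hPR.le hy)]
            exact hy
          · intro hx
            exact ⟨x, hx, hgf x (hPR.le hx)⟩
        exact hbase1 P' P R' g hP'R' hg hgP' hA
      · intro hA
        exact hbase1 P P' R f hPR hf hP' hA
  intro P hP
  obtain ⟨f, hf, hfP⟩ := isConj_iff.1 hP
  have hcP : Nat.card P = n := by rw [← hcard]; exact (isConj_card_eq hP).symm
  have hPℋ : P ∉ ℋ := fun hh => hPm (h.conj P hh Pm hP)
  refine (key P f hcP hPℋ hf Pm hfP).2 ⟨id, isMap_id F (normalizerIn_le S Pm), by simp⟩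

end Cfsg.Agent.Lib.H89SatN1
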