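import Mathlib
import Cfsg.Agent.Lib.Helper89Sat0
import Cfsg.Agent.Lib.H89SatNsys
import Cfsg.Agent.Lib.H89SatIb

set_option autoImplicit false

namespace Cfsg.Agent.Lib.H89SatTc

open Cfsg Cfsg.FusionSystem Cfsg.Agent.Lib.Helper87Fusion Cfsg.Agent.Lib.Helper86Group
  Cfsg.Agent.Lib.Helper86Fusion Cfsg.Agent.Lib.Helper86Fusion2 Cfsg.Agent.Lib.Helper86Fusion3
  Cfsg.Agent.Lib.Helper87Fusion2 Cfsg.Agent.Lib.Helper87Mk Cfsg.Agent.Lib.Helper87NormSys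
  Cfsg.Agent.Lib.Helper89Sat0
  Cfsg.Agent.Lib.H89SatNsys Cfsg.Agent.Lib.H89SatIb

variable {Ω : Type*} [Group Ω] {S : Subgroup Ω}

/-- TRANSPORT, cardinality part.  `(P',Q')` as produced by `improve_a`, `ν : N_S(P') → S` an `F`-map with `ν(P') = Pm`, `R = ν(Q')`.
Then `ν` maps `X' := N_S(P') ∩ N_S(Q')` ONTO `X := N_S(Pm) ∩ N_S(R)`.
Proof: `ν(X') ⊆ X` (`map_mem_normalizerIn` twice; `Q' ≤ N_S(P')` is `hfa.1`), injective; `improve_b` for the pair `(Pm,R)` and the iso `(ν|Q')⁻¹ : R → Q'` gives an injective `F`-map `ψ` on `X` with `ψ(Pm) = P'`, `ψ(R) = Q'`, so `ψ(X) ⊆ X'`.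
So `|X| = |X'|` (`card_le_of_isMap`) and `ν(X') = X` (`image_eq_of_card_le`). -/
theorem transport_card [Finite S] {p : ℕ} [Fact p.Prime] (hS : IsPGroup p S) (F : FusionSystem S)
    {P' Q' Pm R : Subgroup Ω} (hP' : P' ≤ S) (hPQ' : P' ≤ Q')
    (hrec : F.IsReceptive Q') (hfa : (nsys F P' hP').IsFullyAutomized p Q')
    {ν : Ω → Ω} (hν : IsMap F (normalizerIn S P') ν) (hνP : ν '' (P' : Set Ω) = (Pm : Set Ω))
    (hR : ν '' (Q' : Set Ω) = (R : Set Ω)) :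
    ν '' ((normalizerIn S P' ⊓ normalizerIn S Q' : Subgroup Ω) : Set Ω)
      = ((normalizerIn S Pm ⊓ normalizerIn S R : Subgroup Ω) : Set Ω) := by
  have hQ'N : Q' ≤ normalizerIn S P' := hfa.1
  have hPmS : Pm ≤ S := (hν.restrict (le_normalizerIn hP')).image_le hνP
  have hRS : R ≤ S := (hν.restrict hQ'N).image_le hR
  have hPmR : Pm ≤ R := by
    intro y hy
    obtain ⟨x, hx, rfl⟩ := IsMap.exists_of_mem_image hνP hy
    exact IsMap.mem_image hR (hPQ' hx)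
  have hRNPm : R ≤ normalizerIn S Pm := by
    intro y hy
    obtain ⟨x, hx, rfl⟩ := IsMap.exists_of_mem_image hR hy
    exact H89SatNsys.map_mem_normalizerIn hν (le_normalizerIn hP') hνP (hQ'N hx) (hQ'N hx)
  have hsub : ν '' ((normalizerIn S P' ⊓ normalizerIn S Q' : Subgroup Ω) : Set Ω)
      ⊆ ((normalizerIn S Pm ⊓ normalizerIn S R : Subgroup Ω) : Set Ω) := by
    rintro _ ⟨x, hx, rfl⟩
    exact ⟨H89SatNsys.map_mem_normalizerIn hν (le_normalizerIn hP') hνP hx.1 hx.1,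
      H89SatNsys.map_mem_normalizerIn hν hQ'N hR hx.1 hx.2⟩
  obtain ⟨g, hg, hgν, hνg, hgR⟩ := (hν.restrict hQ'N).inv hR
  have hgP : g '' (Pm : Set Ω) = (P' : Set Ω) := by
    rw [← hνP, Set.image_image]
    ext y
    constructor
    · rintro ⟨x, hx, rfl⟩
      show g (ν x) ∈ (P' : Set Ω)
      rw [hgν x (hPQ' hx)]
      exact hx
    · intro hy
      exact ⟨y, hy, hgν y (hPQ' hy)⟩
  obtain ⟨ψ, hψ, hψP, hψR⟩ := H89SatIb.improve_b hS F hP' hPQ' hrec hfa hPmR hg hgR hgP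
  have hPmX : Pm ≤ normalizerIn S Pm ⊓ normalizerIn S R :=
    le_inf (le_normalizerIn hPmS) (hPmR.trans (le_normalizerIn hRS))
  have hRX : R ≤ normalizerIn S Pm ⊓ normalizerIn S R := le_inf hRNPm (le_normalizerIn hRS)
  have hsub2 : ψ '' ((normalizerIn S Pm ⊓ normalizerIn S R : Subgroup Ω) : Set Ω)
      ⊆ ((normalizerIn S P' ⊓ normalizerIn S Q' : Subgroup Ω) : Set Ω) := by
    rintro _ ⟨x, hx, rfl⟩
    exact ⟨H89SatNsys.map_mem_normalizerIn hψ hPmX hψP hx hx.1,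
      H89SatNsys.map_mem_normalizerIn hψ hRX hψR hx hx.2⟩
  have hfinS : (S : Set Ω).Finite := Set.toFinite _
  have hfin1 : ((normalizerIn S Pm ⊓ normalizerIn S R : Subgroup Ω) : Set Ω).Finite :=
    hfinS.subset (fun x hx => hx.1.1)
  have hfin2 : ((normalizerIn S P' ⊓ normalizerIn S Q' : Subgroup Ω) : Set Ω).Finite :=
    hfinS.subset (fun x hx => hx.1.1)
  apply Set.eq_of_subset_of_ncard_le hsub _ hfin1
  rw [Set.ncard_image_of_injOn (fun x hx y hy hxy => hν.inj hx.1 hy.1 hxy)]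
  have h1 := Set.ncard_le_ncard hsub2 hfin2
  rw [Set.ncard_image_of_injOn (fun x hx y hy hxy => hψ.inj hx hy hxy)] at h1
  exact h1

end Cfsg.Agent.Lib.H89SatTc
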