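import Mathlib
import Cfsg.Agent.Lib.Helper89Sat0
import Cfsg.Agent.Lib.H89SatNsys

set_option autoImplicit false

namespace Cfsg.Agent.Lib.H89SatTfa

open Cfsg Cfsg.FusionSystem Cfsg.Agent.Lib.Helper87Fusion Cfsg.Agent.Lib.Helper86Group
  Cfsg.Agent.Lib.Helper86Fusion Cfsg.Agent.Lib.Helper86Fusion2 Cfsg.Agent.Lib.Helper86Fusion3
  Cfsg.Agent.Lib.Helper87Fusion2 Cfsg.Agent.Lib.Helper87Mk Cfsg.Agent.Lib.Helper87NormSys
  Cfsg.Agent.Lib.Helper89Sat0
  Cfsg.Agent.Lib.H89SatNsys

variable {Ω : Type*} [Group Ω] {S : Subgroup Ω}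

/-- an element inducing an automorphism of `Q` by conjugation normalizes `Q`. -/
theorem mem_normalizerIn_of_aut {Q : Subgroup Ω} {g : Ω} (hg : g ∈ S) (α : MulAut Q)
    (hga : ∀ x : Q, ((α x : Q) : Ω) = g * x * g⁻¹) : g ∈ normalizerIn S Q := by
  rw [mem_normalizerIn]
  refine ⟨hg, fun y => ⟨fun hy => ?_, fun hy => ?_⟩⟩
  · rw [← hga ⟨y, hy⟩]
    exact (α ⟨y, hy⟩).2
  · have h1 := hga (α.symm ⟨_, hy⟩)
    rw [MulEquiv.apply_symm_apply] at h1
    have h2 : y = ((α.symm ⟨_, hy⟩ : Q) : Ω) := by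
      have := congrArg (fun t => g⁻¹ * t * g) h1
      simpa [mul_assoc] using this
    rw [h2]
    exact (α.symm ⟨_, hy⟩).2

/-- one direction of the transport. -/
theorem one_dir [Finite S] (F : FusionSystem S)
    {P' Q' Pm R : Subgroup Ω} (hP' : P' ≤ S) (hPm : Pm ≤ S) (hPQ' : P' ≤ Q')
    (hQN : Q' ≤ normalizerIn S P')
    {ν : Ω → Ω} (hν : IsMap F (normalizerIn S P' ⊓ normalizerIn S Q') ν)
    (hνP : ν '' (P' : Set Ω) = (Pm : Set Ω))
    (hR : ν '' (Q' : Set Ω) = (R : Set Ω))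
    (hX : ν '' ((normalizerIn S P' ⊓ normalizerIn S Q' : Subgroup Ω) : Set Ω)
      = ((normalizerIn S Pm ⊓ normalizerIn S R : Subgroup Ω) : Set Ω))
    (e : Q' ≃* R) (he : ∀ x : Q', ((e x : R) : Ω) = ν x) :
    (∀ α ∈ (nsys F P' hP').autGroup Q', MulAut.congr e α ∈ (nsys F Pm hPm).autGroup R) ∧
    (∀ α ∈ autInducedBy (normalizerIn S P') Q',
      MulAut.congr e α ∈ autInducedBy (normalizerIn S Pm) R) := by
  have hQS : Q' ≤ S := hQN.trans (normalizerIn_le _ _)
  have hQX : Q' ≤ normalizerIn S P' ⊓ normalizerIn S Q' := le_inf hQN (le_normalizerIn hQS)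
  have hRX : R ≤ normalizerIn S Pm ⊓ normalizerIn S R := by
    intro y hy
    obtain ⟨x, hx, rfl⟩ := IsMap.exists_of_mem_image hR hy
    exact IsMap.mem_image hX (hQX hx)
  have hRN : R ≤ normalizerIn S Pm := hRX.trans inf_le_left
  have hRS : R ≤ S := hRN.trans (normalizerIn_le _ _)
  have hPmR : Pm ≤ R := by
    intro y hy
    obtain ⟨x, hx, rfl⟩ := IsMap.exists_of_mem_image hνP hy
    exact IsMap.mem_image hR (hPQ' hx)
  obtain ⟨μ, hμ, hμν, hνμ, hμR⟩ := (hν.restrict hQX).inv hR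
  have hes : ∀ y : R, ((e.symm y : Q') : Ω) = μ y := by
    intro y
    have := hμν (e.symm y) (e.symm y).2
    rw [← he] at this
    simpa using this.symm
  constructor
  · intro α hα
    obtain ⟨h1, h2⟩ := (mem_autGroup_nsys_iff F hP' hPQ' hQN α).1 hα
    rw [mem_autGroup_nsys_iff F hPm hPmR hRN]
    constructor
    · have ha : IsMap F Q' (tot (Q'.subtype.comp α.toMonoidHom)) :=
        isMap_tot ((mem_autGroup_iff F hQS α).1 h1)
      rw [mem_autGroup_iff_isMap F hRS _
        (f := fun y => ν (tot (Q'.subtype.comp α.toMonoidHom) (μ y)))]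
      · exact (hμ.comp ha (fun y hy => IsMap.mem_image hμR hy)).comp (hν.restrict hQX)
          (fun y hy => by
            rw [tot_of_mem _ (IsMap.mem_image hμR hy)]
            exact (α _).2)
      · intro y
        show ((e (α (e.symm y)) : R) : Ω) = _
        rw [he, ← hes, tot_apply]
        rfl
    · intro y hy
      show ((e (α (e.symm y)) : R) : Ω) ∈ Pm
      rw [he]
      apply IsMap.mem_image hνP
      apply h2
      obtain ⟨u, hu, huy⟩ := IsMap.exists_of_mem_image hνP hy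
      rw [hes, ← huy, hμν u (hPQ' hu)]
      exact hu
  · intro α hα
    obtain ⟨g, hg, hga⟩ := (mem_autInducedBy_iff _ Q' α).1 hα
    have hgQ : g ∈ normalizerIn S Q' := mem_normalizerIn_of_aut (normalizerIn_le _ _ hg) α hga
    have hgX : g ∈ normalizerIn S P' ⊓ normalizerIn S Q' := Subgroup.mem_inf.2 ⟨hg, hgQ⟩
    rw [mem_autInducedBy_iff]
    refine ⟨ν g, (Subgroup.mem_inf.1 (IsMap.mem_image hX hgX)).1, fun y => ?_⟩
    show ((e (α (e.symm y)) : R) : Ω) = _
    rw [he, hga, hν.map_conj hgX (hQX (e.symm y).2), ← he]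
    simp

/-- TRANSPORT, fully automized part. -/
theorem transport_fa [Finite S] {p : ℕ} [Fact p.Prime] (hS : IsPGroup p S) (F : FusionSystem S)
    {P' Q' Pm R : Subgroup Ω} (hP' : P' ≤ S) (hPm : Pm ≤ S) (hPQ' : P' ≤ Q')
    (hfa : (nsys F P' hP').IsFullyAutomized p Q')
    {ν : Ω → Ω} (hν : IsMap F (normalizerIn S P') ν) (hνP : ν '' (P' : Set Ω) = (Pm : Set Ω))
    (hR : ν '' (Q' : Set Ω) = (R : Set Ω))
    (hX : ν '' ((normalizerIn S P' ⊓ normalizerIn S Q' : Subgroup Ω) : Set Ω)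
      = ((normalizerIn S Pm ⊓ normalizerIn S R : Subgroup Ω) : Set Ω)) :
    (nsys F Pm hPm).IsFullyAutomized p R := by
  have hQN : Q' ≤ normalizerIn S P' := hfa.1
  have hQS : Q' ≤ S := hQN.trans (normalizerIn_le _ _)
  have hQX : Q' ≤ normalizerIn S P' ⊓ normalizerIn S Q' := le_inf hQN (le_normalizerIn hQS)
  have hRX : R ≤ normalizerIn S Pm ⊓ normalizerIn S R := by
    intro y hy
    obtain ⟨x, hx, rfl⟩ := IsMap.exists_of_mem_image hR hy
    exact IsMap.mem_image hX (hQX hx)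
  have hRN : R ≤ normalizerIn S Pm := hRX.trans inf_le_left
  have hRS : R ≤ S := hRN.trans (normalizerIn_le _ _)
  have hPmR : Pm ≤ R := by
    intro y hy
    obtain ⟨x, hx, rfl⟩ := IsMap.exists_of_mem_image hνP hy
    exact IsMap.mem_image hR (hPQ' hx)
  have hνX : IsMap F (normalizerIn S P' ⊓ normalizerIn S Q') ν := hν.restrict inf_le_left
  obtain ⟨μ, hμ, hμν, hνμ, hμX⟩ := hνX.inv hX
  obtain ⟨e, he⟩ := exists_mulEquiv (hν.restrict hQN) hR
  have hes : ∀ y : R, ((e.symm y : Q') : Ω) = μ y := by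
    intro y
    have := hμν (e.symm y) (hQX (e.symm y).2)
    rw [← he] at this
    simpa using this.symm
  have hμP : μ '' (Pm : Set Ω) = (P' : Set Ω) := by
    rw [← hνP, Set.image_image]
    ext y
    constructor
    · rintro ⟨x, hx, rfl⟩
      show μ (ν x) ∈ (P' : Set Ω)
      rw [hμν x (hQX (hPQ' hx))]
      exact hx
    · intro hy
      exact ⟨y, hy, hμν y (hQX (hPQ' hy))⟩
  have hμR : μ '' (R : Set Ω) = (Q' : Set Ω) := by
    rw [← hR, Set.image_image]
    ext y
    constructor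
    · rintro ⟨x, hx, rfl⟩
      show μ (ν x) ∈ (Q' : Set Ω)
      rw [hμν x (hQX hx)]
      exact hx
    · intro hy
      exact ⟨y, hy, hμν y (hQX hy)⟩
  obtain ⟨a1, a2⟩ := one_dir F hP' hPm hPQ' hQN hνX hνP hR hX e he
  obtain ⟨b1, b2⟩ := one_dir F hPm hP' hPmR hRN hμ hμP hμR hμX e.symm hes
  haveI : Finite (normalizerIn S P') := finite_of_le (normalizerIn_le S P')
  haveI : Finite (normalizerIn S Pm) := finite_of_le (normalizerIn_le S Pm)
  haveI : Finite Q' := finite_of_le hQS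
  haveI : Finite R := finite_of_le hRS
  have hc1 : Nat.card ((nsys F Pm hPm).autGroup R) = Nat.card ((nsys F P' hP').autGroup Q') := by
    apply le_antisymm
    · exact Nat.card_le_card_of_injective
        (fun β => (⟨MulAut.congr e.symm β.1, b1 β.1 β.2⟩ : (nsys F P' hP').autGroup Q'))
        (fun β β' h => Subtype.ext ((MulAut.congr e.symm).injective (congrArg Subtype.val h)))
    · exact Nat.card_le_card_of_injective
        (fun β => (⟨MulAut.congr e β.1, a1 β.1 β.2⟩ : (nsys F Pm hPm).autGroup R))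
        (fun β β' h => Subtype.ext ((MulAut.congr e).injective (congrArg Subtype.val h)))
  have hc2 : Nat.card (autInducedBy (normalizerIn S Pm) R)
      = Nat.card (autInducedBy (normalizerIn S P') Q') := by
    apply le_antisymm
    · exact Nat.card_le_card_of_injective
        (fun β => (⟨MulAut.congr e.symm β.1, b2 β.1 β.2⟩ : autInducedBy (normalizerIn S P') Q'))
        (fun β β' h => Subtype.ext ((MulAut.congr e.symm).injective (congrArg Subtype.val h)))
    · exact Nat.card_le_card_of_injective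
        (fun β => (⟨MulAut.congr e β.1, a2 β.1 β.2⟩ : autInducedBy (normalizerIn S Pm) R))
        (fun β β' h => Subtype.ext ((MulAut.congr e).injective (congrArg Subtype.val h)))
  rw [fullyAutomized_iff_card _ hRN, hc1, hc2]
  exact (fullyAutomized_iff_card _ hQN).1 hfa

end Cfsg.Agent.Lib.H89SatTfa
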