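import Mathlib
import Cfsg.Agent.Lib.Helper89Sat0
import Cfsg.Agent.Lib.H89SatNsys

set_option autoImplicit false

namespace Cfsg.Agent.Lib.H89SatTrec

open Cfsg Cfsg.FusionSystem Cfsg.Agent.Lib.Helper87Fusion Cfsg.Agent.Lib.Helper86Group
  Cfsg.Agent.Lib.Helper86Fusion Cfsg.Agent.Lib.Helper86Fusion2 Cfsg.Agent.Lib.Helper86Fusion3
  Cfsg.Agent.Lib.Helper87Fusion2 Cfsg.Agent.Lib.Helper87Mk Cfsg.Agent.Lib.Helper87NormSys
  Cfsg.Agent.Lib.Helper89Sat0
  Cfsg.Agent.Lib.H89SatNsys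

variable {Ω : Type*} [Group Ω] {S : Subgroup Ω}

/-- TRANSPORT, receptive part. -/
theorem transport_rec [Finite S] {p : ℕ} [Fact p.Prime] (hS : IsPGroup p S) (F : FusionSystem S)
    {P' Q' Pm R : Subgroup Ω} (hP' : P' ≤ S) (hPm : Pm ≤ S) (hPQ' : P' ≤ Q')
    (hQN : Q' ≤ normalizerIn S P') (hrec : F.IsReceptive Q')
    {ν : Ω → Ω} (hν : IsMap F (normalizerIn S P') ν) (hνP : ν '' (P' : Set Ω) = (Pm : Set Ω))
    (hR : ν '' (Q' : Set Ω) = (R : Set Ω))
    (hX : ν '' ((normalizerIn S P' ⊓ normalizerIn S Q' : Subgroup Ω) : Set Ω)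
      = ((normalizerIn S Pm ⊓ normalizerIn S R : Subgroup Ω) : Set Ω)) :
    (nsys F Pm hPm).IsReceptive R := by
  have hNP' : P' ≤ normalizerIn S P' := le_normalizerIn hP'
  have hRN : R ≤ normalizerIn S Pm := by
    intro y hy
    obtain ⟨x, hx, rfl⟩ := IsMap.exists_of_mem_image hR hy
    exact map_mem_normalizerIn hν hNP' hνP (hQN hx) (hQN hx)
  have hPmR : Pm ≤ R := by
    intro y hy
    obtain ⟨x, hx, rfl⟩ := IsMap.exists_of_mem_image hνP hy
    exact IsMap.mem_image hR (hPQ' hx)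
  obtain ⟨μ, hμ, hμν, hνμ, hμR⟩ := (hν.restrict hQN).inv hR
  apply isReceptive_of hRN
  intro R' f hf hfR M hM
  have hPmR' : Pm ≤ R' := le_of_nsys_image hPm hf hfR hPmR
  obtain ⟨hfF, hR'N, hfPm⟩ := (isMap_nsys_iff hPm hPmR').1 hf
  have hg₁ : IsMap F R' (fun x => μ (f x)) := hfF.comp hμ (fun x hx => IsMap.mem_image hfR hx)
  have hg₁Q : (fun x => μ (f x)) '' (R' : Set Ω) = (Q' : Set Ω) := by
    rw [← hμR, ← hfR, Set.image_image]
  have hg₁P : (fun x => μ (f x)) '' (Pm : Set Ω) = (P' : Set Ω) := by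
    ext y
    constructor
    · rintro ⟨x, hx, rfl⟩
      obtain ⟨u, hu, hux⟩ := IsMap.exists_of_mem_image hνP (IsMap.mem_image hfPm hx)
      show μ (f x) ∈ P'
      rw [← hux, hμν u (hPQ' hu)]
      exact hu
    · intro hy
      obtain ⟨x, hx, hxy⟩ := IsMap.exists_of_mem_image hfPm (IsMap.mem_image hνP hy)
      refine ⟨x, hx, ?_⟩
      show μ (f x) = y
      rw [hxy, hμν y (hPQ' hy)]
  have hext : ∀ g ∈ M, g ∈ S ∧ g ∈ Subgroup.normalizer (R' : Set Ω) ∧
      ∃ h ∈ S, ∀ x ∈ R', (fun x => μ (f x)) (g * x * g⁻¹) = h * (fun x => μ (f x)) x * h⁻¹ := by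
    intro g hg
    obtain ⟨hgN, hgR', h, hh, hhf⟩ := (hM g).1 hg
    refine ⟨normalizerIn_le _ _ hgN, hgR', ?_⟩
    have hhR : h ∈ normalizerIn S R := by
      rw [mem_normalizerIn]
      refine ⟨normalizerIn_le _ _ hh, fun y => ⟨fun hy => ?_, fun hy => ?_⟩⟩
      · obtain ⟨x, hx, rfl⟩ := IsMap.exists_of_mem_image hfR hy
        rw [← hhf x hx]
        exact IsMap.mem_image hfR ((Subgroup.mem_normalizer_iff.1 hgR' x).1 hx)
      · obtain ⟨w, hw, hwy⟩ := IsMap.exists_of_mem_image hfR hy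
        have hx : g⁻¹ * w * g ∈ R' := by
          rw [Subgroup.mem_normalizer_iff.1 hgR']
          have : g * (g⁻¹ * w * g) * g⁻¹ = w := by group
          rw [this]
          exact hw
        have h1 := hhf _ hx
        have h2 : g * (g⁻¹ * w * g) * g⁻¹ = w := by group
        rw [h2, hwy] at h1
        have h3 : y = f (g⁻¹ * w * g) := by
          have := congrArg (fun t => h⁻¹ * t * h) h1
          simpa [mul_assoc] using this
        rw [h3]
        exact IsMap.mem_image hfR hx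
    obtain ⟨h', hh', rfl⟩ := IsMap.exists_of_mem_image hX (Subgroup.mem_inf.2 ⟨hh, hhR⟩)
    refine ⟨h', normalizerIn_le _ _ (Subgroup.mem_inf.1 hh').1, fun x hx => ?_⟩
    show μ (f (g * x * g⁻¹)) = h' * μ (f x) * h'⁻¹
    rw [hhf x hx]
    have hfx : f x ∈ R := IsMap.mem_image hfR hx
    have hq : μ (f x) ∈ Q' := IsMap.mem_image hμR hfx
    have h1 := hν.map_conj (Subgroup.mem_inf.1 hh').1 (hQN hq)
    rw [hνμ _ hfx] at h1
    rw [← h1]
    apply hμν
    exact ((mem_normalizerIn.1 (Subgroup.mem_inf.1 hh').2).2 _).1 hq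
  obtain ⟨gh, hgh, hghg⟩ := isReceptive_extend hrec hg₁ hg₁Q hext
  have hR'M : R' ≤ M := by
    intro g hg
    rw [hM]
    refine ⟨hR'N hg, Subgroup.le_normalizer hg, f g, hRN (IsMap.mem_image hfR hg), fun x hx => ?_⟩
    exact hfF.map_conj hg hx
  have hPmM : Pm ≤ M := hPmR'.trans hR'M
  have hMN : M ≤ normalizerIn S Pm := fun g hg => ((hM g).1 hg).1
  have hghP : gh '' (Pm : Set Ω) = (P' : Set Ω) := by
    rw [← hg₁P]
    exact Set.image_congr (fun x hx => hghg x (hPmR' hx))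
  have hghN : ∀ x ∈ M, gh x ∈ normalizerIn S P' := fun x hx =>
    map_mem_normalizerIn hgh hPmM hghP hx (hMN hx)
  refine ⟨fun x => ν (gh x), ?_, fun x hx => ?_⟩
  · rw [isMap_nsys_iff hPm hPmM]
    refine ⟨hgh.comp hν hghN, hMN, ?_⟩
    have h1 : (fun x => ν (gh x)) '' (Pm : Set Ω) = ν '' (gh '' (Pm : Set Ω)) :=
      (Set.image_image ν gh _).symm
    rw [h1, hghP, hνP]
  · show ν (gh x) = f x
    rw [hghg x hx]
    exact hνμ _ (IsMap.mem_image hfR hx)

end Cfsg.Agent.Lib.H89SatTrec
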