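import Mathlib
import Cfsg.Agent.Lib.Helper89Sat0
import Cfsg.Agent.Lib.H89SatNsys
import Cfsg.Agent.Lib.H89SatTc
import Cfsg.Agent.Lib.H89SatTfa
import Cfsg.Agent.Lib.H89SatTrec

set_option autoImplicit false

namespace Cfsg.Agent.Lib.H89SatT

open Cfsg Cfsg.FusionSystem Cfsg.Agent.Lib.Helper87Fusion Cfsg.Agent.Lib.Helper86Group
  Cfsg.Agent.Lib.Helper86Fusion Cfsg.Agent.Lib.Helper86Fusion2 Cfsg.Agent.Lib.Helper86Fusion3
  Cfsg.Agent.Lib.Helper87Fusion2 Cfsg.Agent.Lib.Helper87Mk Cfsg.Agent.Lib.Helper87NormSys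
  Cfsg.Agent.Lib.Helper89Sat0
  Cfsg.Agent.Lib.H89SatNsys Cfsg.Agent.Lib.H89SatTc Cfsg.Agent.Lib.H89SatTfa Cfsg.Agent.Lib.H89SatTrec

variable {Ω : Type*} [Group Ω] {S : Subgroup Ω}

/-- TRANSPORT (assembled). -/
theorem transport [Finite S] {p : ℕ} [Fact p.Prime] (hS : IsPGroup p S) (F : FusionSystem S)
    {P' Q' Pm R : Subgroup Ω} (hP' : P' ≤ S) (hPm : Pm ≤ S) (hPQ' : P' ≤ Q')
    (hrec : F.IsReceptive Q') (hfa : (nsys F P' hP').IsFullyAutomized p Q')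
    {ν : Ω → Ω} (hν : IsMap F (normalizerIn S P') ν) (hνP : ν '' (P' : Set Ω) = (Pm : Set Ω))
    (hR : ν '' (Q' : Set Ω) = (R : Set Ω)) :
    (nsys F Pm hPm).IsFullyAutomized p R ∧ (nsys F Pm hPm).IsReceptive R :=
  have hX := transport_card hS F hP' hPQ' hrec hfa hν hνP hR
  ⟨transport_fa hS F hP' hPm hPQ' hfa hν hνP hR hX,
    transport_rec hS F hP' hPm hPQ' hfa.1 hrec hν hνP hR hX⟩

end Cfsg.Agent.Lib.H89SatT
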