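import Mathlib
import Cfsg.Agent.Lib.Helper89Sat0
import Cfsg.Agent.Lib.H89SatNsys
import Cfsg.Agent.Lib.H89SatIa
import Cfsg.Agent.Lib.H89SatT

set_option autoImplicit false

namespace Cfsg.Agent.Lib.H89SatSharp

open Cfsg Cfsg.FusionSystem Cfsg.Agent.Lib.Helper87Fusion Cfsg.Agent.Lib.Helper86Group
  Cfsg.Agent.Lib.Helper86Fusion Cfsg.Agent.Lib.Helper86Fusion2 Cfsg.Agent.Lib.Helper86Fusion3
  Cfsg.Agent.Lib.Helper87Fusion2 Cfsg.Agent.Lib.Helper87Mk Cfsg.Agent.Lib.Helper87NormSys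
  Cfsg.Agent.Lib.Helper89Sat0
  Cfsg.Agent.Lib.H89SatNsys Cfsg.Agent.Lib.H89SatIa Cfsg.Agent.Lib.H89SatT

variable {Ω : Type*} [Group Ω] {S : Subgroup Ω}

/-- every `R` with `Pm < R ≤ N_S(Pm)` is good in `N_F(Pm)`.
Proof: `improve_a` for `(Pm,R)` gives `(P'',R*,f₀)`; `P''` is conjugate to `Pm` (restrict `f₀`), `hrecv` gives `ν''` on `N_S(P'')`; `R* ≤ N_S(P'')` (first component of the f.a. statement);
`R♯ := ν''(R*)` (`IsMap.exists_image_of_le`); `transport`; `ν'' ∘ f₀` on `R` is a map of `N_F(Pm)` (`isMap_nsys_iff`) with image `R♯` (`isConj_iff`). -/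
theorem sharp [Finite S] {p : ℕ} [Fact p.Prime] (hS : IsPGroup p S) (F : FusionSystem S) {n : ℕ}
    (hgood : ∀ Q : Subgroup Ω, Q ≤ S → n < Nat.card Q → Good F p Q)
    {Pm : Subgroup Ω} (hPm : Pm ≤ S) (hcard : Nat.card Pm = n) (hrecv : Recv F Pm) :
    ∀ R : Subgroup Ω, Pm < R → R ≤ normalizerIn S Pm → Good (nsys F Pm hPm) p R := by
  intro R hlt hRN
  have hRS : R ≤ S := hRN.trans (normalizerIn_le S Pm)
  haveI : Finite R :=
    Finite.of_injective (Subgroup.inclusion hRS) (Subgroup.inclusion_injective hRS)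
  have hcardR : n < Nat.card R := by
    rw [← hcard]
    by_contra hcon
    exact hlt.ne (Subgroup.eq_of_le_of_card_ge hlt.le (not_lt.mp hcon))
  obtain ⟨P'', Rs, hP'', f₀, hf₀, hf₀R, hf₀P, hrec, hfa⟩ :=
    H89SatIa.improve_a hS F hlt.le hRN (hgood R hRS hcardR)
  have hconj : F.IsConj Pm P'' := isConj_iff.2 ⟨f₀, hf₀.restrict hlt.le, hf₀P⟩
  obtain ⟨ν, hν, hνP⟩ := hrecv P'' (isConj_symm hconj)
  have hRsN : Rs ≤ normalizerIn S P'' := hfa.1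
  obtain ⟨Rsh, hRsh⟩ := hν.exists_image_of_le hRsN
  have hPR : P'' ≤ Rs := by
    intro y hy
    obtain ⟨x, hx, rfl⟩ := IsMap.exists_of_mem_image hf₀P hy
    exact IsMap.mem_image hf₀R (hlt.le hx)
  obtain ⟨hfa', hrec'⟩ := H89SatT.transport hS F hP'' hPm hPR hrec hfa hν hνP hRsh
  refine ⟨Rsh, ?_, hfa', hrec'⟩
  rw [Cfsg.Agent.Lib.Helper87Fusion.isConj_iff]
  refine ⟨fun x => ν (f₀ x), ?_, ?_⟩
  · rw [H89SatNsys.isMap_nsys_iff hPm hlt.le]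
    refine ⟨hf₀.comp hν (fun x hx => hRsN (IsMap.mem_image hf₀R hx)), hRN, ?_⟩
    rw [← Set.image_image, hf₀P, hνP]
  · rw [← Set.image_image, hf₀R, hRsh]

end Cfsg.Agent.Lib.H89SatSharp
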