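import Mathlib
import Cfsg.Agent.Lib.Helper89Sat0

set_option autoImplicit false

namespace Cfsg.Agent.Lib.H89SatTop

open Cfsg Cfsg.FusionSystem Cfsg.Agent.Lib.Helper87Fusion Cfsg.Agent.Lib.Helper86Group
  Cfsg.Agent.Lib.Helper86Fusion Cfsg.Agent.Lib.Helper86Fusion2 Cfsg.Agent.Lib.Helper86Fusion3
  Cfsg.Agent.Lib.Helper87Fusion2 Cfsg.Agent.Lib.Helper87Mk Cfsg.Agent.Lib.Helper87NormSys
  Cfsg.Agent.Lib.Helper89Sat0

variable {Ω : Type*} [Group Ω] {S : Subgroup Ω}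

/-- `S ∈ ℋ`: `S` is centric (its only conjugate is `S`, by finiteness, and `C_S(S) ≤ S`); if `S ∉ ℋ` then `hstar` gives a
conjugate `Q = S` with `Aut_S(S) ⊓ … ≰ Inn(S)`, but `Aut_S(S) = Inn(S)` (`mem_autInducedBy_iff`, `mem_inn_iff`). -/
theorem top_mem [Finite S] (F : FusionSystem S) (p : ℕ) (ℋ : Set (Subgroup Ω))
    (hstar : ∀ P : Subgroup Ω, F.IsCentric P → P ∉ ℋ → ∃ Q, F.IsConj P Q ∧
      ¬ (autInducedBy S Q ⊓ (pCore p ↥(F.autGroup Q)).map (F.autGroup Q).subtype ≤ Inn Q)) :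
    S ∈ ℋ := by
  by_contra hS
  have hconjS : ∀ Q, F.IsConj S Q → Q = S := by
    intro Q hQ
    have hle := isConj_le_right hQ
    have hc := isConj_card_eq hQ
    exact Subgroup.eq_of_le_of_card_ge hle (by rw [hc])
  have hcen : F.IsCentric S :=
    ⟨le_rfl, fun Q hQ => by rw [hconjS Q hQ]; exact centralizerIn_le S S⟩
  obtain ⟨Q, hQ, hn⟩ := hstar S hcen hS
  have hQS := hconjS Q hQ
  subst hQS
  apply hn
  intro α hα
  obtain ⟨g, hg, hga⟩ := (mem_autInducedBy_iff _ _ α).1 hα.1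
  exact (mem_inn_iff α).2 ⟨g, hg, hga⟩

end Cfsg.Agent.Lib.H89SatTop
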