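import Mathlib
import Cfsg.Agent.Lib.Helper89Sat0
import Cfsg.Agent.Lib.H89SatNsys
import Cfsg.Agent.Lib.H89SatTop
import Cfsg.Agent.Lib.H89SatN1
import Cfsg.Agent.Lib.H89SatSharp
import Cfsg.Agent.Lib.H89SatAGen
import Cfsg.Agent.Lib.H89SatHatEx
import Cfsg.Agent.Lib.H89SatHat
import Cfsg.Agent.Lib.H89SatHatG
import Cfsg.Agent.Lib.H89SatExt
import Cfsg.Agent.Lib.H89SatKind
import Cfsg.Agent.Lib.H89SatFA
import Cfsg.Agent.Lib.H89SatRec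
import Cfsg.Agent.Lib.H89SatBack

set_option autoImplicit false

namespace Cfsg.Agent.Lib.H89SatMain

open Cfsg Cfsg.FusionSystem Cfsg.Agent.Lib.Helper87Fusion Cfsg.Agent.Lib.Helper86Group
  Cfsg.Agent.Lib.Helper86Fusion Cfsg.Agent.Lib.Helper86Fusion2 Cfsg.Agent.Lib.Helper86Fusion3
  Cfsg.Agent.Lib.Helper87Fusion2 Cfsg.Agent.Lib.Helper87Mk Cfsg.Agent.Lib.Helper87NormSys
  Cfsg.Agent.Lib.Helper89Sat0
  Cfsg.Agent.Lib.H89SatNsys Cfsg.Agent.Lib.H89SatTop Cfsg.Agent.Lib.H89SatN1 Cfsg.Agent.Lib.H89SatSharp Cfsg.Agent.Lib.H89SatAGen Cfsg.Agent.Lib.H89SatHatEx Cfsg.Agent.Lib.H89SatHat Cfsg.Agent.Lib.H89SatHatG Cfsg.Agent.Lib.H89SatExt Cfsg.Agent.Lib.H89SatKind Cfsg.Agent.Lib.H89SatFA Cfsg.Agent.Lib.H89SatRec Cfsg.Agent.Lib.H89SatBack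

variable {Ω : Type*} [Group Ω] {S : Subgroup Ω}

theorem step [Finite S] {p : ℕ} [Fact p.Prime] (hS : IsPGroup p S) {F : FusionSystem S}
    {ℋ : Set (Subgroup Ω)} {n : ℕ} (h : Ctx F p ℋ n) {P₀ : Subgroup Ω} (hP₀ : P₀ ≤ S)
    (hc : Nat.card P₀ = n) : Good F p P₀ := by
  by_cases hm : P₀ ∈ ℋ
  · exact h.sat _ hm
  obtain ⟨Pm, hconj, hfn⟩ := exists_fullyNormalized_conj F hP₀
  have hPmℋ : Pm ∉ ℋ := fun hh => hm (h.conj _ hh _ (isConj_symm hconj))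
  have hcard : Nat.card Pm = n := (isConj_card_eq hconj).trans hc
  have hPm := hfn.1
  have hrecv := recv hS h hfn hcard hPmℋ
  haveI : Finite (normalizerIn S Pm) := finite_of_le (normalizerIn_le S Pm)
  have hN : IsPGroup p (normalizerIn S Pm) := hS.to_le (normalizerIn_le S Pm)
  have hctx : NCtx (nsys F Pm hPm) p Pm :=
    ⟨le_normalizerIn hPm, fun R f hPR hf => ((isMap_nsys_iff hPm hPR).1 hf).2.2,
      fun R f hf hR => nsys_src hPm hf hR, sharp hS F h.good hPm hcard hrecv,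
      aut_gen hS h hPm hcard hPmℋ hrecv⟩
  obtain ⟨H, hH⟩ := exists_hat hctx
  obtain ⟨x, hxN, hxP, α, hα, hαx⟩ := exists_hat_elt hS h hPm hPmℋ hrecv
  obtain ⟨hPH, hHN, -⟩ := hat_basic hN hctx hH
  have hxH : x ∈ H := (hH x).2 ⟨hxN, α, hα, hαx⟩
  have hlt : Pm < H := lt_of_le_of_ne hPH (fun he => hxP (he ▸ hxH))
  obtain ⟨-, -, hHH⟩ := hat_good hN hctx hH hlt
  have hK := ext_of_map hN hctx hH hlt
  have hsurj := surj hctx hPH hHN hHH hK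
  have hfa := fa hN hctx hH hlt hsurj
  have hrec := rec hN hctx hH hlt hsurj
  obtain ⟨h1, h2⟩ := back hS F hPm hrecv hfa hrec
  exact ⟨Pm, hconj, h1, h2⟩

theorem main [Finite S] (p : ℕ) [Fact p.Prime] (hS : IsPGroup p S) (F : FusionSystem S)
    (ℋ : Set (Subgroup Ω))
    (hℋconj : ∀ P ∈ ℋ, ∀ Q, F.IsConj P Q → Q ∈ ℋ)
    (hsat : ∀ P ∈ ℋ, ∃ Q, F.IsConj P Q ∧ F.IsFullyAutomized p Q ∧ F.IsReceptive Q)
    (hgen : ∀ E : FusionSystem S, (∀ P ∈ ℋ, F.Hom P ⊆ E.Hom P) → F ≤ E)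
    (hstar : ∀ P : Subgroup Ω, F.IsCentric P → P ∉ ℋ → ∃ Q, F.IsConj P Q ∧
      ¬ (autInducedBy S Q ⊓ (pCore p ↥(F.autGroup Q)).map (F.autGroup Q).subtype ≤ Inn Q)) :
    F.IsSaturated p := by
  have htop := top_mem F p ℋ hstar
  have key : ∀ k : ℕ, ∀ P : Subgroup Ω, P ≤ S → Nat.card S - Nat.card P = k → Good F p P := by
    intro k
    induction k using Nat.strong_induction_on with
    | _ k ih =>
      intro P hP hk
      refine step hS (n := Nat.card P) ⟨hℋconj, hsat, hgen, hstar, htop, fun Q hQ hlt => ?_⟩ hP rfl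
      have hQc : Nat.card Q ≤ Nat.card S := Subgroup.card_le_of_le hQ
      exact ih (Nat.card S - Nat.card Q) (by omega) Q hQ rfl
  intro P hP
  exact key _ P hP rfl

end Cfsg.Agent.Lib.H89SatMain
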