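import Mathlib
import Cfsg.Agent.Lib.Helper89Sat0
import Cfsg.Agent.Lib.H89SatHat
import Cfsg.Agent.Lib.H89SatHatG
import Cfsg.Agent.Lib.H89SatExt
import Cfsg.Agent.Lib.H89SatGrpB

set_option autoImplicit false

namespace Cfsg.Agent.Lib.H89SatRec

open Cfsg Cfsg.FusionSystem Cfsg.Agent.Lib.Helper87Fusion Cfsg.Agent.Lib.Helper86Group
  Cfsg.Agent.Lib.Helper86Fusion Cfsg.Agent.Lib.Helper86Fusion2 Cfsg.Agent.Lib.Helper86Fusion3
  Cfsg.Agent.Lib.Helper87Fusion2 Cfsg.Agent.Lib.Helper87Mk Cfsg.Agent.Lib.Helper87NormSys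
  Cfsg.Agent.Lib.Helper89Sat0
  Cfsg.Agent.Lib.H89SatHat Cfsg.Agent.Lib.H89SatHatG Cfsg.Agent.Lib.H89SatExt Cfsg.Agent.Lib.H89SatGrpB

variable {Ω : Type*} [Group Ω] {S : Subgroup Ω}

variable {N : Subgroup Ω} [Finite N] {p : ℕ} [Fact p.Prime] {E : FusionSystem N} {P H : Subgroup Ω}

/-- `P` is receptive in `E`.
Proof (`isReceptive_of`): an `E`-map `f` with image `P` has source `P` (`h.src`).  `M` = its extender.  Lift `f` to an `E`-map `f̃` of `H` (`hsurj`), `f̃ ∈ A := Aut_E(H)`; `Y = Aut_N(H)` Sylow (`hat_good`), `ρ : A → Aut_E(P)` restriction.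
`D := f̃ Aut_M(H) f̃⁻¹` (`M ≤ N` normalizes `H`) is a `p`-subgroup of `A` with `ρ(D) = f Aut_M(P) f⁻¹ ⊆ Aut_N(P) = ρ(Y)` by definition of `M`.  `sylow_ker_conj` gives `κ ∈ ker ρ` with `κ D κ⁻¹ ≤ Y`.
`f̃' := κ f̃` restricts to `f` on `P` and `f̃' c_g f̃'⁻¹ = c_h|H`, `h ∈ N`, for all `g ∈ M`; `isReceptive_extend` (`H` receptive) gives an `E`-map on `M` equal to `f̃'` on `H ⊇ P`. -/
theorem rec (hN : IsPGroup p N) (h : NCtx E p P) (hH : IsHat E p P H) (hlt : P < H)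
    (hsurj : ∀ f : Ω → Ω, IsMap E P f → Ext E P H f) : E.IsReceptive P := by
  classical
  obtain ⟨hPH, hHN, -⟩ := hat_basic hN h hH
  obtain ⟨hNH, hNP⟩ := hat_normal hN h hH
  obtain ⟨hfaH, hrecH, hHH⟩ := hat_good hN h hH hlt
  apply isReceptive_of h.le
  intro P₀ f hf hfP M hM
  have hP0 : P₀ = P := h.src P₀ f hf hfP
  subst hP0
  obtain ⟨ft, hft, hftf⟩ := hsurj f hf
  have hftH := hHH ft hft
  obtain ⟨φ, hφA, hφ⟩ := hft.exists_aut hftH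
  have hfinH : Finite H := finite_of_le hHN
  obtain ⟨Y, hY⟩ := hfaH.2
  have hinv : ∀ α ∈ E.autGroup H, ∀ x : H, (x : Ω) ∈ P₀ → ((α x : H) : Ω) ∈ P₀ := by
    intro α hα x hx
    have hm := (mem_autGroup_iff_totA E hHN α).1 hα
    have := h.inv H (totA α) hPH hm
    rw [← totA_apply]
    exact IsMap.mem_image this hx
  obtain ⟨ρ, hρ⟩ : ∃ ρ : E.autGroup H →* E.autGroup P₀, ∀ (a : E.autGroup H) (x : P₀),
      (((ρ a : MulAut P₀) x : P₀) : Ω) = ((a : MulAut H) ⟨x, hPH x.2⟩ : H) :=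
    ⟨Cfsg.Agent.Lib.Helper86PPowerN.resAut E hPH hHN hinv, fun a x => rfl⟩
  have hMN : M ≤ N := fun g hg => ((hM g).1 hg).1
  have hD₀Y : (autInducedBy M H).subgroupOf (E.autGroup H) ≤ (Y : Subgroup (E.autGroup H)) := by
    intro a ha
    rw [hY]
    exact Subgroup.mem_subgroupOf.2 (autInducedBy_mono hMN H (Subgroup.mem_subgroupOf.1 ha))
  have hD : IsPGroup p (((autInducedBy M H).subgroupOf (E.autGroup H)).map
      (MulAut.conj (⟨φ, hφA⟩ : E.autGroup H)).toMonoidHom) := (Y.2.to_le hD₀Y).map _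
  have hDY : ∀ d ∈ ((autInducedBy M H).subgroupOf (E.autGroup H)).map
      (MulAut.conj (⟨φ, hφA⟩ : E.autGroup H)).toMonoidHom, ∃ y ∈ Y, ρ d = ρ y := by
    rintro _ ⟨c, hc, rfl⟩
    obtain ⟨g, hg, hgc⟩ := (mem_autInducedBy_iff M H (c : MulAut H)).1
      (Subgroup.mem_subgroupOf.1 hc)
    obtain ⟨hgN, hgP, k, hk, hkf⟩ := (hM g).1 hg
    obtain ⟨y, hy, hyk⟩ := exists_conjAut (K := N) (P := H) hk (hNH hk)
    have hyA : y ∈ E.autGroup H := autInducedBy_le_autGroup E hHN hy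
    refine ⟨⟨y, hyA⟩, ?_, ?_⟩
    · show (⟨y, hyA⟩ : E.autGroup H) ∈ (Y : Subgroup (E.autGroup H))
      rw [hY]
      exact Subgroup.mem_subgroupOf.2 hy
    · apply Subtype.ext
      apply MulEquiv.ext
      intro x
      apply Subtype.ext
      rw [hρ, hρ]
      show ((φ ((c : MulAut H) (φ⁻¹ ⟨x, hPH x.2⟩)) : H) : Ω) = ((y ⟨x, hPH x.2⟩ : H) : Ω)
      have hx'P : ((φ⁻¹ ⟨x, hPH x.2⟩ : H) : Ω) ∈ P₀ :=
        hinv φ⁻¹ ((E.autGroup H).inv_mem hφA) ⟨x, hPH x.2⟩ x.2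
      have hgx : g * ((φ⁻¹ ⟨x, hPH x.2⟩ : H) : Ω) * g⁻¹ ∈ P₀ :=
        (Subgroup.mem_normalizer_iff.1 hgP _).1 hx'P
      have e1 : ft ((φ⁻¹ ⟨x, hPH x.2⟩ : H) : Ω) = x := by
        rw [← hφ]
        simp
      rw [hφ, hgc, hftf _ hgx, hkf _ hx'P, ← hftf _ hx'P, e1, hyk]
  obtain ⟨κ, hκ1, hκD⟩ := sylow_ker_conj Y ρ _ hD hDY
  have hκm : IsMap E H (totA (κ : MulAut H)) := (mem_autGroup_iff_totA E hHN _).1 κ.2
  have hκP : ∀ x ∈ P₀, totA (κ : MulAut H) x = x := by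
    intro x hx
    have := hρ κ ⟨x, hx⟩
    rw [hκ1] at this
    rw [totA_of_mem _ (hPH hx)]
    exact this.symm
  have hg' : IsMap E H (fun x => totA (κ : MulAut H) (ft x)) :=
    hft.comp hκm (fun x hx => IsMap.mem_image hftH hx)
  have hg'H := hHH _ hg'
  obtain ⟨f', hf', hf'e⟩ := isReceptive_extend (N := M) hrecH hg' hg'H (by
    intro g hg
    have hgN := hMN hg
    refine ⟨hgN, hNH hgN, ?_⟩
    obtain ⟨c, hc, hcg⟩ := exists_conjAut (K := M) (P := H) hg (hNH hgN)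
    have hcA : c ∈ E.autGroup H :=
      autInducedBy_le_autGroup E hHN (autInducedBy_mono hMN H hc)
    have hd : (MulAut.conj (⟨φ, hφA⟩ : E.autGroup H)).toMonoidHom ⟨c, hcA⟩
        ∈ ((autInducedBy M H).subgroupOf (E.autGroup H)).map
          (MulAut.conj (⟨φ, hφA⟩ : E.autGroup H)).toMonoidHom :=
      ⟨⟨c, hcA⟩, Subgroup.mem_subgroupOf.2 hc, rfl⟩
    have hy' : (κ * (MulAut.conj (⟨φ, hφA⟩ : E.autGroup H)).toMonoidHom ⟨c, hcA⟩ * κ⁻¹ :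
        E.autGroup H) ∈ (Y : Subgroup (E.autGroup H)) := hκD _ hd
    rw [hY, Subgroup.mem_subgroupOf] at hy'
    obtain ⟨k, hk, hkk⟩ := (mem_autInducedBy_iff N H _).1 hy'
    refine ⟨k, hk, fun x hx => ?_⟩
    have h1 := hkk ((κ : MulAut H) (φ ⟨x, hx⟩))
    have e : ((κ * (MulAut.conj (⟨φ, hφA⟩ : E.autGroup H)).toMonoidHom ⟨c, hcA⟩ * κ⁻¹ :
        E.autGroup H) : MulAut H) ((κ : MulAut H) (φ ⟨x, hx⟩))
        = (κ : MulAut H) (φ (c ⟨x, hx⟩)) := by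
      show (κ : MulAut H) (φ (c (φ⁻¹ ((κ : MulAut H)⁻¹ ((κ : MulAut H) (φ ⟨x, hx⟩)))))) = _
      simp
    rw [e] at h1
    have e2 : g * x * g⁻¹ = ((c ⟨x, hx⟩ : H) : Ω) := (hcg ⟨x, hx⟩).symm
    have e3 : ft x = ((φ ⟨x, hx⟩ : H) : Ω) := (hφ ⟨x, hx⟩).symm
    show totA (κ : MulAut H) (ft (g * x * g⁻¹)) = k * totA (κ : MulAut H) (ft x) * k⁻¹
    rw [e2, ← hφ, totA_apply, e3, totA_apply]
    exact h1)
  refine ⟨f', hf', fun x hx => ?_⟩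
  rw [hf'e x (hPH hx)]
  show totA (κ : MulAut H) (ft x) = f x
  rw [hftf x hx, hκP _ (IsMap.mem_image hfP hx)]

end Cfsg.Agent.Lib.H89SatRec
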