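import Mathlib
import Cfsg.Agent.Lib.Helper87Mk
import Cfsg.Agent.Lib.Helper88Normal
import Cfsg.Agent.Lib.Helper90NormalCrit

set_option autoImplicit false

/-! Transport of fusion systems along an isomorphism of the underlying groups, at the level of TOTAL functions
(`IsMap` calculus).  `t : Ω → Ω'` and `s : Ω' → Ω` are arbitrary total functions; only their values on `Y`, `Y'` matter. -/

namespace Cfsg.Agent.Lib.H89TrDefs

open Cfsg Cfsg.FusionSystem Cfsg.Agent.Lib.Helper87Fusion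

variable {Ω Ω' : Type*} [Group Ω] [Group Ω']

/-- `t` restricts to a group isomorphism `Y → Y'` with inverse `s`. -/
structure IsoOn (t : Ω → Ω') (s : Ω' → Ω) (Y : Subgroup Ω) (Y' : Subgroup Ω') : Prop where
  map : ∀ x ∈ Y, t x ∈ Y'
  inv : ∀ y ∈ Y', s y ∈ Y
  st : ∀ x ∈ Y, s (t x) = x
  ts : ∀ y ∈ Y', t (s y) = y
  mul : ∀ x ∈ Y, ∀ y ∈ Y, t (x * y) = t x * t y

/-- every map `f` of `A` is carried to the map `t ∘ f ∘ s` of `A'`. -/
def Push (t : Ω → Ω') (s : Ω' → Ω) {X : Subgroup Ω} {X' : Subgroup Ω'} (A : FusionSystem X)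
    (A' : FusionSystem X') : Prop :=
  ∀ (P : Subgroup Ω) (P' : Subgroup Ω') (f : Ω → Ω), IsMap A P f → t '' (P : Set Ω) = (P' : Set Ω') →
    IsMap A' P' (fun y => t (f (s y)))

/-- `A'` (over `X'`) is the image of `A` (over `X`) under the isomorphism `t : X → X'` (inverse `s`). -/
def Corr (t : Ω → Ω') (s : Ω' → Ω) {X : Subgroup Ω} {X' : Subgroup Ω'} (A : FusionSystem X)
    (A' : FusionSystem X') : Prop :=
  IsoOn t s X X' ∧ Push t s A A' ∧ Push s t A' A

end Cfsg.Agent.Lib.H89TrDefs
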