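import Mathlib
import Cfsg.Agent.Lib.H89TrDefs

set_option autoImplicit false

namespace Cfsg.Agent.Lib.H89TrBasic

open Cfsg Cfsg.FusionSystem Cfsg.Agent.Lib.Helper87Fusion Cfsg.Agent.Lib.H89TrDefs

variable {Ω Ω' : Type*} [Group Ω] [Group Ω'] {t : Ω → Ω'} {s : Ω' → Ω}

/-- `s (y₁ y₂) = s (t (s y₁) * t (s y₂)) = s (t (s y₁ * s y₂)) = s y₁ * s y₂`. -/
theorem isoOn_symm {Y : Subgroup Ω} {Y' : Subgroup Ω'} (h : IsoOn t s Y Y') : IsoOn s t Y' Y :=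
  { map := h.inv, inv := h.map, st := h.ts, ts := h.st,
    mul := fun y₁ h₁ y₂ h₂ => by
      have e : t (s y₁ * s y₂) = y₁ * y₂ := by
        rw [h.mul _ (h.inv _ h₁) _ (h.inv _ h₂), h.ts _ h₁, h.ts _ h₂]
      rw [← e, h.st _ (Y.mul_mem (h.inv _ h₁) (h.inv _ h₂))] }

theorem isoOn_image {Y : Subgroup Ω} {Y' : Subgroup Ω'} (h : IsoOn t s Y Y') :
    t '' (Y : Set Ω) = (Y' : Set Ω') := by
  ext y
  constructor
  · rintro ⟨x, hx, rfl⟩
    exact h.map x hx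
  · intro hy
    exact ⟨s y, h.inv y hy, h.ts y hy⟩

theorem isoOn_one {Y : Subgroup Ω} {Y' : Subgroup Ω'} (h : IsoOn t s Y Y') : t 1 = 1 := by
  have h1 := h.mul 1 Y.one_mem 1 Y.one_mem
  rw [mul_one] at h1
  exact mul_left_cancel (a := t 1) (by rw [mul_one]; exact h1.symm)

theorem isoOn_inv {Y : Subgroup Ω} {Y' : Subgroup Ω'} (h : IsoOn t s Y Y') {x : Ω} (hx : x ∈ Y) :
    t x⁻¹ = (t x)⁻¹ := by
  apply eq_inv_of_mul_eq_one_left
  rw [← h.mul _ (Y.inv_mem hx) _ hx, inv_mul_cancel, isoOn_one h]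

theorem isoOn_inj {Y : Subgroup Ω} {Y' : Subgroup Ω'} (h : IsoOn t s Y Y') {x y : Ω} (hx : x ∈ Y)
    (hy : y ∈ Y) (hxy : t x = t y) : x = y := by
  rw [← h.st x hx, hxy, h.st y hy]

theorem isoOn_restrict {Y X : Subgroup Ω} {Y' X' : Subgroup Ω'} (h : IsoOn t s Y Y') (hX : X ≤ Y)
    (hXX' : t '' (X : Set Ω) = (X' : Set Ω')) : IsoOn t s X X' := by
  have hex : ∀ y ∈ X', ∃ x ∈ X, t x = y := by
    intro y hy
    have : y ∈ (X' : Set Ω') := hy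
    rw [← hXX'] at this
    exact this
  refine ⟨?_, ?_, fun x hx => h.st x (hX hx), ?_, fun x hx y hy => h.mul x (hX hx) y (hX hy)⟩
  · intro x hx
    have : t x ∈ (X' : Set Ω') := by rw [← hXX']; exact ⟨x, hx, rfl⟩
    exact this
  · intro y hy
    obtain ⟨x, hx, rfl⟩ := hex y hy
    rw [h.st x (hX hx)]
    exact hx
  · intro y hy
    obtain ⟨x, hx, rfl⟩ := hex y hy
    rw [h.st x (hX hx)]

/-- the image subgroup: carrier `t '' X`. -/
theorem isoOn_exists_image {Y X : Subgroup Ω} {Y' : Subgroup Ω'} (h : IsoOn t s Y Y') (hX : X ≤ Y) :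
    ∃ X' : Subgroup Ω', X' ≤ Y' ∧ t '' (X : Set Ω) = (X' : Set Ω') := by
  refine ⟨{ carrier := t '' (X : Set Ω)
            mul_mem' := ?_
            one_mem' := ⟨1, X.one_mem, isoOn_one h⟩
            inv_mem' := ?_ }, ?_, rfl⟩
  · rintro _ _ ⟨a, ha, rfl⟩ ⟨b, hb, rfl⟩
    exact ⟨a * b, X.mul_mem ha hb, h.mul a (hX ha) b (hX hb)⟩
  · rintro _ ⟨a, ha, rfl⟩
    exact ⟨a⁻¹, X.inv_mem ha, isoOn_inv h (hX ha)⟩
  · rintro _ ⟨a, ha, rfl⟩
    exact h.map a (hX ha)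

theorem isoOn_image_symm {Y X : Subgroup Ω} {Y' X' : Subgroup Ω'} (h : IsoOn t s Y Y') (hX : X ≤ Y)
    (hXX' : t '' (X : Set Ω) = (X' : Set Ω')) : s '' (X' : Set Ω') = (X : Set Ω) :=
  isoOn_image (isoOn_symm (isoOn_restrict h hX hXX'))

theorem isoOn_image_le {Y X : Subgroup Ω} {Y' X' : Subgroup Ω'} (h : IsoOn t s Y Y') (hX : X ≤ Y)
    (hXX' : t '' (X : Set Ω) = (X' : Set Ω')) : X' ≤ Y' := by
  intro y hy
  have : y ∈ (X' : Set Ω') := hy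
  rw [← hXX'] at this
  obtain ⟨x, hx, rfl⟩ := this
  exact h.map x (hX hx)

theorem isoOn_finite {Y : Subgroup Ω} {Y' : Subgroup Ω'} (h : IsoOn t s Y Y') [Finite Y] : Finite Y' := by
  refine Finite.of_injective (fun y : Y' => (⟨s y, h.inv y y.2⟩ : Y)) ?_
  intro a b hab
  have h1 : s a = s b := congrArg Subtype.val hab
  exact Subtype.ext (isoOn_inj (isoOn_symm h) a.2 b.2 h1)

theorem isoOn_exists_hom {Y : Subgroup Ω} {Y' : Subgroup Ω'} (h : IsoOn t s Y Y') :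
    ∃ τ : Y →* Y', ∀ x : Y, ((τ x : Y') : Ω') = t x :=
  ⟨{ toFun := fun x => ⟨t x, h.map x x.2⟩
     map_one' := Subtype.ext (isoOn_one h)
     map_mul' := fun a b => Subtype.ext (h.mul a a.2 b b.2) }, fun _ => rfl⟩

theorem isoOn_isPGroup {Y : Subgroup Ω} {Y' : Subgroup Ω'} (h : IsoOn t s Y Y') {p : ℕ}
    (hp : IsPGroup p Y) : IsPGroup p Y' := by
  obtain ⟨σ, hσ⟩ := isoOn_exists_hom (isoOn_symm h)
  refine hp.of_injective σ ?_
  intro a b hab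
  have h1 : s a = s b := by rw [← hσ a, ← hσ b, hab]
  exact Subtype.ext (isoOn_inj (isoOn_symm h) a.2 b.2 h1)

theorem isoOn_congr {Y : Subgroup Ω} {Y' : Subgroup Ω'} (h : IsoOn t s Y Y') {t₂ : Ω → Ω'} {s₂ : Ω' → Ω}
    (ht : ∀ x ∈ Y, t x = t₂ x) (hs : ∀ y ∈ Y', s y = s₂ y) : IsoOn t₂ s₂ Y Y' := by
  refine ⟨?_, ?_, ?_, ?_, ?_⟩
  · intro x hx; rw [← ht x hx]; exact h.map x hx
  · intro y hy; rw [← hs y hy]; exact h.inv y hy
  · intro x hx; rw [← ht x hx, ← hs _ (h.map x hx)]; exact h.st x hx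
  · intro y hy; rw [← hs y hy, ← ht _ (h.inv y hy)]; exact h.ts y hy
  · intro x hx y hy
    rw [← ht x hx, ← ht y hy, ← ht _ (Y.mul_mem hx hy)]; exact h.mul x hx y hy

theorem corr_symm {X : Subgroup Ω} {X' : Subgroup Ω'} {A : FusionSystem X} {A' : FusionSystem X'}
    (h : Corr t s A A') : Corr s t A' A :=
  ⟨isoOn_symm h.1, h.2.2, h.2.1⟩

/-- `→`: `Push` then `IsMap.congr` (`y = t x`, `t (f (s (t x))) = t (f x) = f' (t x)`).  `←`: `Push s t`, `s '' P' = P`,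
`s (f' (t x)) = s (t (f x)) = f x`. -/
theorem corr_isMap_iff {X : Subgroup Ω} {X' : Subgroup Ω'} {A : FusionSystem X} {A' : FusionSystem X'}
    (h : Corr t s A A') {P : Subgroup Ω} {P' : Subgroup Ω'} (hP : P ≤ X)
    (hPP' : t '' (P : Set Ω) = (P' : Set Ω')) {f : Ω → Ω} {f' : Ω' → Ω'} (hfX : ∀ x ∈ P, f x ∈ X)
    (hff' : ∀ x ∈ P, f' (t x) = t (f x)) : IsMap A P f ↔ IsMap A' P' f' := by
  constructor
  · intro hf
    refine (h.2.1 P P' f hf hPP').congr ?_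
    intro y hy
    have : y ∈ (P' : Set Ω') := hy
    rw [← hPP'] at this
    obtain ⟨x, hx, rfl⟩ := this
    rw [h.1.st x (hP hx), hff' x hx]
  · intro hf'
    refine (h.2.2 P' P f' hf' (isoOn_image_symm h.1 hP hPP')).congr ?_
    intro x hx
    rw [hff' x hx, h.1.st _ (hfX x hx)]

theorem push_congr {X : Subgroup Ω} {X' : Subgroup Ω'} {A : FusionSystem X} {A' : FusionSystem X'}
    (hiso : IsoOn t s X X') (hp : Push t s A A') {t₂ : Ω → Ω'} {s₂ : Ω' → Ω}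
    (ht : ∀ x ∈ X, t x = t₂ x) (hs : ∀ y ∈ X', s y = s₂ y) : Push t₂ s₂ A A' := by
  intro P P' f hf hP'
  have hPX : P ≤ X := hf.le
  have himg : t '' (P : Set Ω) = (P' : Set Ω') := by
    rw [← hP']
    exact Set.image_congr (fun x hx => ht x (hPX hx))
  refine (hp P P' f hf himg).congr ?_
  intro y hy
  have : y ∈ (P' : Set Ω') := hy
  rw [← himg] at this
  obtain ⟨x, hx, rfl⟩ := this
  rw [← hs _ (hiso.map x (hPX hx)), hiso.st x (hPX hx)]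
  exact ht _ (hf.mem hx)

/-- only the values of `t` on `X` and of `s` on `X'` matter. -/
theorem corr_congr {X : Subgroup Ω} {X' : Subgroup Ω'} {A : FusionSystem X} {A' : FusionSystem X'}
    (h : Corr t s A A') {t₂ : Ω → Ω'} {s₂ : Ω' → Ω} (ht : ∀ x ∈ X, t x = t₂ x)
    (hs : ∀ y ∈ X', s y = s₂ y) : Corr t₂ s₂ A A' :=
  ⟨isoOn_congr h.1 ht hs, push_congr h.1 h.2.1 ht hs, push_congr (isoOn_symm h.1) h.2.2 hs ht⟩

end Cfsg.Agent.Lib.H89TrBasic
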