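import Mathlib
import Cfsg.Agent.Lib.H89TrBasic

set_option autoImplicit false

namespace Cfsg.Agent.Lib.H89TrGeo

open Cfsg Cfsg.FusionSystem Cfsg.Agent.Lib.Helper87Fusion Cfsg.Agent.Lib.H89TrDefs
  Cfsg.Agent.Lib.H89TrBasic

variable {Ω Ω' : Type*} [Group Ω] [Group Ω'] {t : Ω → Ω'} {s : Ω' → Ω}

theorem image_centralizerIn {Y X : Subgroup Ω} {Y' X' : Subgroup Ω'} (h : IsoOn t s Y Y') (hX : X ≤ Y)
    (hXX' : t '' (X : Set Ω) = (X' : Set Ω')) :
    t '' ((centralizerIn Y X : Subgroup Ω) : Set Ω) = ((centralizerIn Y' X' : Subgroup Ω') : Set Ω') := by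
  have hr := isoOn_restrict h hX hXX'
  ext g'
  constructor
  · rintro ⟨g, hg, rfl⟩
    obtain ⟨hgY, hgc⟩ := mem_centralizerIn.1 hg
    refine mem_centralizerIn.2 ⟨h.map g hgY, fun x' hx' => ?_⟩
    have e := hr.ts x' hx'
    have hsx := hr.inv x' hx'
    rw [← e, ← h.mul _ (hX hsx) _ hgY, hgc _ hsx, h.mul _ hgY _ (hX hsx)]
  · intro hg'
    obtain ⟨hgY, hgc⟩ := mem_centralizerIn.1 hg'
    refine ⟨s g', mem_centralizerIn.2 ⟨h.inv g' hgY, fun x hx => ?_⟩, h.ts g' hgY⟩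
    apply isoOn_inj h (Y.mul_mem (hX hx) (h.inv g' hgY)) (Y.mul_mem (h.inv g' hgY) (hX hx))
    rw [h.mul _ (hX hx) _ (h.inv g' hgY), h.mul _ (h.inv g' hgY) _ (hX hx), h.ts g' hgY]
    exact hgc _ (hr.map x hx)

/-- take the image subgroup `R'` of `P ⊔ Q` (`isoOn_exists_image`); `P', Q' ≤ R'`; conversely `s '' (P' ⊔ Q')` is a subgroup
containing `P`, `Q`. -/
theorem image_sup {Y P Q : Subgroup Ω} {Y' P' Q' : Subgroup Ω'} (h : IsoOn t s Y Y') (hP : P ≤ Y)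
    (hQ : Q ≤ Y) (hPP' : t '' (P : Set Ω) = (P' : Set Ω')) (hQQ' : t '' (Q : Set Ω) = (Q' : Set Ω')) :
    t '' ((P ⊔ Q : Subgroup Ω) : Set Ω) = ((P' ⊔ Q' : Subgroup Ω') : Set Ω') := by
  have hrP := isoOn_restrict h hP hPP'
  have hrQ := isoOn_restrict h hQ hQQ'
  obtain ⟨R', hR'Y, hR'⟩ := isoOn_exists_image h (sup_le hP hQ)
  have hP'Y : P' ≤ Y' := isoOn_image_le h hP hPP'
  have hQ'Y : Q' ≤ Y' := isoOn_image_le h hQ hQQ'
  obtain ⟨W, hWY, hW⟩ := isoOn_exists_image (isoOn_symm h) (sup_le hP'Y hQ'Y)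
  rw [hR']
  congr 1
  apply le_antisymm
  · intro y hy
    have hy' : y ∈ (R' : Set Ω') := hy
    rw [← hR'] at hy'
    obtain ⟨x, hx, rfl⟩ := hy'
    have hPW : P ≤ W := by
      intro a ha
      have : a ∈ (W : Set Ω) := by
        rw [← hW]
        exact ⟨t a, (le_sup_left : P' ≤ P' ⊔ Q') (hrP.map a ha), hrP.st a ha⟩
      exact this
    have hQW : Q ≤ W := by
      intro a ha
      have : a ∈ (W : Set Ω) := by
        rw [← hW]
        exact ⟨t a, (le_sup_right : Q' ≤ P' ⊔ Q') (hrQ.map a ha), hrQ.st a ha⟩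
      exact this
    have hxW : x ∈ (W : Set Ω) := (sup_le hPW hQW) hx
    rw [← hW] at hxW
    obtain ⟨z, hz, rfl⟩ := hxW
    rw [h.ts z ((sup_le hP'Y hQ'Y) hz)]
    exact hz
  · apply sup_le
    · intro y hy
      have : y ∈ (R' : Set Ω') := by
        rw [← hR']
        exact ⟨s y, (le_sup_left : P ≤ P ⊔ Q) (hrP.inv y hy), hrP.ts y hy⟩
      exact this
    · intro y hy
      have : y ∈ (R' : Set Ω') := by
        rw [← hR']
        exact ⟨s y, (le_sup_right : Q ≤ P ⊔ Q) (hrQ.inv y hy), hrQ.ts y hy⟩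
      exact this

theorem mem_centralizer_iff {X : Subgroup Ω} {X' : Subgroup Ω'} (h : IsoOn t s X X') {x : Ω}
    (hx : x ∈ X) :
    x ∈ Subgroup.centralizer (X : Set Ω) ↔ t x ∈ Subgroup.centralizer (X' : Set Ω') := by
  rw [Subgroup.mem_centralizer_iff, Subgroup.mem_centralizer_iff]
  constructor
  · intro hc y hy
    have hy' : y ∈ X' := hy
    have e := h.ts y hy'
    have hsy := h.inv y hy'
    rw [← e, ← h.mul _ hsy _ hx, hc _ hsy, h.mul _ hx _ hsy]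
  · intro hc z hz
    have hz' : z ∈ X := hz
    apply isoOn_inj h (X.mul_mem hz' hx) (X.mul_mem hx hz')
    rw [h.mul _ hz' _ hx, h.mul _ hx _ hz']
    exact hc _ (h.map z hz')

end Cfsg.Agent.Lib.H89TrGeo
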