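import Mathlib
import Cfsg.Agent.Lib.H89TrGeo
import Cfsg.Agent.S5144

set_option autoImplicit false

namespace Cfsg.Agent.Lib.H89TrCen

open Cfsg Cfsg.FusionSystem Cfsg.Agent.Lib.Helper87Fusion Cfsg.Agent.Lib.H89TrDefs
  Cfsg.Agent.Lib.H89TrBasic Cfsg.Agent.Lib.H89TrGeo

variable {Ω Ω' : Type*} [Group Ω] [Group Ω'] {t : Ω → Ω'} {s : Ω' → Ω}

/-- central subgroups correspond: for `φ' ∈ A'.Hom P'` pull back to `f` on `P`, extend to `P ⊔ Q` fixing `Q` (`hQ.2`), push forward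
(`image_sup`: source `P' ⊔ Q'`). -/
theorem central {X Q : Subgroup Ω} {X' Q' : Subgroup Ω'} {A : FusionSystem X} {A' : FusionSystem X'}
    (h : Corr t s A A') (hQQ' : t '' (Q : Set Ω) = (Q' : Set Ω')) (hQ : A.IsCentral Q) :
    A'.IsCentral Q' := by
  rw [Cfsg.Agent.Lib.Helper87Fusion3.isCentral_iff] at hQ ⊢
  obtain ⟨hQX, hQ2⟩ := hQ
  have hiso := h.1
  have hQ'X' : Q' ≤ X' := isoOn_image_le hiso hQX hQQ'
  refine ⟨hQ'X', fun P' f' hf' => ?_⟩
  have hP'X' : P' ≤ X' := hf'.le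
  obtain ⟨P, hPX, hP⟩ := isoOn_exists_image (isoOn_symm hiso) hP'X'
  have hPP' : t '' (P : Set Ω) = (P' : Set Ω') := isoOn_image_symm (isoOn_symm hiso) hP'X' hP
  have hf : IsMap A P (fun x => s (f' (t x))) := h.2.2 P' P f' hf' hP
  obtain ⟨g, hg, hgP, hgQ⟩ := hQ2 P _ hf
  have hsup : t '' ((P ⊔ Q : Subgroup Ω) : Set Ω) = ((P' ⊔ Q' : Subgroup Ω') : Set Ω') :=
    image_sup hiso hPX hQX hPP' hQQ'
  have hg' : IsMap A' (P' ⊔ Q') (fun y => t (g (s y))) := h.2.1 (P ⊔ Q) (P' ⊔ Q') g hg hsup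
  refine ⟨_, hg', fun y hy => ?_, fun y hy => ?_⟩
  · have hsy : s y ∈ P := by
      have h1 : s y ∈ s '' (P' : Set Ω') := ⟨y, hy, rfl⟩
      rw [hP] at h1; exact h1
    have e1 : g (s y) = s (f' (t (s y))) := hgP _ hsy
    show t (g (s y)) = f' y
    rw [e1, hiso.ts y (hP'X' hy), hiso.ts _ (hf'.mem hy)]
  · have hsy : s y ∈ Q := by
      have hs := isoOn_image_symm hiso hQX hQQ'
      have h1 : s y ∈ s '' (Q' : Set Ω') := ⟨y, hy, rfl⟩
      rw [hs] at h1; exact h1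
    show t (g (s y)) = y
    rw [hgQ _ hsy, hiso.ts y (hQ'X' hy)]

/-- `A.center` is central (`S5144.result A`), so its image `Z₁` is central in `A'`, `Z₁ ≤ A'.center` (`le_sSup`); symmetrically (with `corr_symm`,
`Finite X'` by `isoOn_finite`) the `s`-image of `A'.center` is `≤ A.center`. -/
theorem center {X : Subgroup Ω} {X' : Subgroup Ω'} [Finite X] {A : FusionSystem X}
    {A' : FusionSystem X'} (h : Corr t s A A') :
    t '' ((A.center : Subgroup Ω) : Set Ω) = ((A'.center : Subgroup Ω') : Set Ω') := by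
  have hiso := h.1
  haveI : Finite X' := isoOn_finite hiso
  have hc : A.IsCentral A.center := Cfsg.Agent.S5144.result A
  have hc' : A'.IsCentral A'.center := Cfsg.Agent.S5144.result A'
  obtain ⟨Z₁, hZ₁X', hZ₁⟩ := isoOn_exists_image hiso hc.1
  have h1 : A'.IsCentral Z₁ := central h hZ₁ hc
  have h2 : Z₁ ≤ A'.center := le_sSup h1
  obtain ⟨Z₂, hZ₂X, hZ₂⟩ := isoOn_exists_image (isoOn_symm hiso) hc'.1
  have h3 : A.IsCentral Z₂ := central (corr_symm h) hZ₂ hc'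
  have h4 : Z₂ ≤ A.center := le_sSup h3
  have h5 : Z₁ = A'.center := by
    apply le_antisymm h2
    intro y hy
    have hsy : s y ∈ Z₂ := by
      have h6 : s y ∈ s '' ((A'.center : Subgroup Ω') : Set Ω') := ⟨y, hy, rfl⟩
      rw [hZ₂] at h6; exact h6
    have h7 : t (s y) ∈ t '' ((A.center : Subgroup Ω) : Set Ω) := ⟨s y, h4 hsy, rfl⟩
    rw [hZ₁, hiso.ts y (hc'.1 hy)] at h7
    exact h7
  rw [hZ₁, h5]

end Cfsg.Agent.Lib.H89TrCen
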