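import Mathlib
import Cfsg.Agent.Lib.H89TrBasic

set_option autoImplicit false

namespace Cfsg.Agent.Lib.H89TrConj

open Cfsg Cfsg.FusionSystem Cfsg.Agent.Lib.Helper87Fusion Cfsg.Agent.Lib.H89TrDefs
  Cfsg.Agent.Lib.H89TrBasic

variable {Ω : Type*} [Group Ω]

/-- composition: if `C₁` is the image of `C` under `g₀`, `E` the image of `C` under `g`, and `g = a ∘ g₀` on `T`, then `E` is the image of `C₁` under `a`.
`IsoOn a a' T₁ T'` by `isoOn_restrict` (`a '' T₁ = a '' (g₀ '' T) = g '' T = T'`).  `Push a a' C₁ E`: a map `f₁` of `C₁` on `P₁`: pull back by `Push s₀ g₀` to `C`, push by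
`Push g s` to `E`, `IsMap.congr`.  `Push a' a E C₁`: symmetric. -/
theorem corr_comp {T T₁ T' U : Subgroup Ω} {C : FusionSystem T} {C₁ : FusionSystem T₁}
    {E : FusionSystem T'} {g₀ s₀ g s a a' : Ω → Ω} (h₀ : Corr g₀ s₀ C C₁) (h : Corr g s C E)
    (ha : IsoOn a a' U U) (hT₁ : T₁ ≤ U) (hg : ∀ x ∈ T, g x = a (g₀ x)) : Corr a a' C₁ E := by
  obtain ⟨i₀, p₀, q₀⟩ := h₀
  obtain ⟨i, pp, qq⟩ := h
  have himg : a '' (T₁ : Set Ω) = (T' : Set Ω) := by
    rw [← isoOn_image i₀, ← isoOn_image i]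
    ext y
    constructor
    · rintro ⟨_, ⟨x, hx, rfl⟩, rfl⟩
      exact ⟨x, hx, hg x hx⟩
    · rintro ⟨x, hx, rfl⟩
      exact ⟨g₀ x, ⟨x, hx, rfl⟩, (hg x hx).symm⟩
  have ia : IsoOn a a' T₁ T' := isoOn_restrict ha hT₁ himg
  -- a y = g (s₀ y) on T₁ ; a' z = g₀ (s z) on T'
  have ea : ∀ y ∈ T₁, a y = g (s₀ y) := by
    intro y hy
    rw [hg _ (i₀.inv y hy), i₀.ts y hy]
  have ea' : ∀ z ∈ T', a' z = g₀ (s z) := by
    intro z hz
    have h1 : a (g₀ (s z)) = z := by rw [← hg _ (i.inv z hz), i.ts z hz]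
    have h2 : g₀ (s z) ∈ T₁ := i₀.map _ (i.inv z hz)
    rw [← ia.st _ h2, h1]
  refine ⟨ia, ?_, ?_⟩
  · intro P₁ P' f₁ hf₁ hP'
    have hP₁ : P₁ ≤ T₁ := hf₁.le
    obtain ⟨P, hPT, hP⟩ := isoOn_exists_image (isoOn_symm i₀) hP₁
    have m1 := q₀ P₁ P f₁ hf₁ hP
    have hP'T : P' ≤ T' := isoOn_image_le ia hP₁ hP'
    have hPP' : g '' (P : Set Ω) = (P' : Set Ω) := by
      rw [← hP, ← hP']
      ext y
      constructor
      · rintro ⟨_, ⟨x, hx, rfl⟩, rfl⟩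
        exact ⟨x, hx, ea x (hP₁ hx)⟩
      · rintro ⟨x, hx, rfl⟩
        exact ⟨s₀ x, ⟨x, hx, rfl⟩, (ea x (hP₁ hx)).symm⟩
    have m2 := pp P P' _ m1 hPP'
    refine m2.congr ?_
    intro z hz
    have hzT : z ∈ T' := hP'T hz
    show g (s₀ (f₁ (g₀ (s z)))) = a (f₁ (a' z))
    rw [ea' z hzT]
    have h3 : g₀ (s z) ∈ P₁ := by
      rw [← ea' z hzT]
      have : a' '' (P' : Set Ω) = (P₁ : Set Ω) := isoOn_image_symm ia hP₁ hP'
      exact IsMap.mem_image this hz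
    rw [ea _ (hf₁.mem h3)]
  · intro P' P₁ f' hf' hP₁
    have hP' : P' ≤ T' := hf'.le
    obtain ⟨P, hPT, hP⟩ := isoOn_exists_image (isoOn_symm i) hP'
    have m1 := qq P' P f' hf' hP
    have hP₁T : P₁ ≤ T₁ := isoOn_image_le (isoOn_symm ia) hP' hP₁
    have hPP₁ : g₀ '' (P : Set Ω) = (P₁ : Set Ω) := by
      rw [← hP, ← hP₁]
      ext y
      constructor
      · rintro ⟨_, ⟨x, hx, rfl⟩, rfl⟩
        exact ⟨x, hx, ea' x (hP' hx)⟩
      · rintro ⟨x, hx, rfl⟩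
        exact ⟨s x, ⟨x, hx, rfl⟩, (ea' x (hP' hx)).symm⟩
    have m2 := p₀ P P₁ _ m1 hPP₁
    refine m2.congr ?_
    intro z hz
    have hzT : z ∈ T₁ := hP₁T hz
    show g₀ (s (f' (g (s₀ z)))) = a' (f' (a z))
    rw [ea z hzT]
    have h3 : g (s₀ z) ∈ P' := by
      rw [← ea z hzT]
      have : a '' (P₁ : Set Ω) = (P' : Set Ω) := isoOn_image_symm (isoOn_symm ia) hP' hP₁
      exact IsMap.mem_image this hz
    rw [ea' _ (hf'.mem h3)]

theorem isoOn_of_maps {S U : Subgroup Ω} {F : FusionSystem S} {a a' : Ω → Ω} (ha : IsMap F U a)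
    (haU : a '' (U : Set Ω) = (U : Set Ω)) (h1 : ∀ x ∈ U, a' (a x) = x) (h2 : ∀ x ∈ U, a (a' x) = x) :
    IsoOn a a' U U := by
  refine ⟨fun x hx => IsMap.mem_image haU hx, ?_, h1, h2, fun x hx y hy => ha.map_mul hx hy⟩
  intro y hy
  obtain ⟨x, hx, rfl⟩ := IsMap.exists_of_mem_image haU hy
  rw [h1 x hx]; exact hx

/-- an `F`-automorphism `a` of `U` maps an `F`-invariant subsystem `D` over `U` to itself: `Helper88Normal.conj_aut hinv`. -/
theorem corr_of_invariant {S U : Subgroup Ω} {F : FusionSystem S} {D : FusionSystem U}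
    (hinv : D.IsInvariantIn F) {a a' : Ω → Ω} (ha : IsMap F U a) (ha' : IsMap F U a')
    (haU : a '' (U : Set Ω) = (U : Set Ω)) (h1 : ∀ x ∈ U, a' (a x) = x) (h2 : ∀ x ∈ U, a (a' x) = x) :
    Corr a a' D D := by
  have ia : IsoOn a a' U U := isoOn_of_maps ha haU h1 h2
  have ha'U : a' '' (U : Set Ω) = (U : Set Ω) := isoOn_image (isoOn_symm ia)
  refine ⟨ia, ?_, ?_⟩
  · intro P P' f hf hP'
    refine Cfsg.Agent.Lib.Helper88Normal.conj_aut hinv hf.le hf ha haU hP' ?_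
    intro x hx
    show a (f (a' (a x))) = a (f x)
    rw [h1 x (hf.le hx)]
  · intro P P' f hf hP'
    refine Cfsg.Agent.Lib.Helper88Normal.conj_aut hinv hf.le hf ha' ha'U hP' ?_
    intro x hx
    show a' (f (a (a' x))) = a' (f x)
    rw [h2 x (hf.le hx)]

/-- an `F`-automorphism of `S` maps `F` to itself (`IsMap.comp`, `IsMap.restrict`). -/
theorem corr_self {S : Subgroup Ω} {F : FusionSystem S} {a a' : Ω → Ω} (ha : IsMap F S a)
    (ha' : IsMap F S a') (haS : a '' (S : Set Ω) = (S : Set Ω)) (h1 : ∀ x ∈ S, a' (a x) = x)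
    (h2 : ∀ x ∈ S, a (a' x) = x) : Corr a a' F F := by
  have ia : IsoOn a a' S S := isoOn_of_maps ha haS h1 h2
  refine ⟨ia, ?_, ?_⟩
  · intro P P' f hf hP'
    have hP'S : P' ≤ S := isoOn_image_le ia hf.le hP'
    have hb : a' '' (P' : Set Ω) = (P : Set Ω) := isoOn_image_symm ia hf.le hP'
    have m1 : IsMap F P' (fun y => f (a' y)) :=
      (ha'.restrict hP'S).comp hf (fun y hy => IsMap.mem_image hb hy)
    exact m1.comp ha (fun y hy => hf.mem (IsMap.mem_image hb hy))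
  · intro P P' f hf hP'
    have hP'S : P' ≤ S := isoOn_image_le (isoOn_symm ia) hf.le hP'
    have hb : a '' (P' : Set Ω) = (P : Set Ω) := isoOn_image_symm (isoOn_symm ia) hf.le hP'
    have m1 : IsMap F P' (fun y => f (a y)) :=
      (ha.restrict hP'S).comp hf (fun y hy => IsMap.mem_image hb hy)
    exact m1.comp ha' (fun y hy => hf.mem (IsMap.mem_image hb hy))

/-- a map of a fusion system is an `IsoOn` onto its image (`IsMap.inv`, `IsMap.map_mul`). -/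
theorem isoOn_of_isMap {S T T₁ : Subgroup Ω} {F : FusionSystem S} {c : Ω → Ω} (hc : IsMap F T c)
    (hT₁ : c '' (T : Set Ω) = (T₁ : Set Ω)) : ∃ c' : Ω → Ω, IsMap F T₁ c' ∧ IsoOn c c' T T₁ := by
  obtain ⟨c', hc', e1, e2, e3⟩ := hc.inv hT₁
  exact ⟨c', hc', fun x hx => IsMap.mem_image hT₁ hx, fun y hy => IsMap.mem_image e3 hy, e1, e2,
    fun x hx y hy => hc.map_mul hx hy⟩

end Cfsg.Agent.Lib.H89TrConj
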