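import Mathlib
import Cfsg.Agent.Lib.H89TrBasic

set_option autoImplicit false

namespace Cfsg.Agent.Lib.H89TrEx

open Cfsg Cfsg.FusionSystem Cfsg.Agent.Lib.Helper87Fusion Cfsg.Agent.Lib.H89TrDefs
  Cfsg.Agent.Lib.H89TrBasic

variable {Ω Ω' : Type*} [Group Ω] [Group Ω'] {t : Ω → Ω'} {s : Ω' → Ω}

theorem mem_t {X : Subgroup Ω} {X' : Subgroup Ω'} (hi : IsoOn t s X X') {P' : Subgroup Ω'}
    {P : Subgroup Ω} (hP' : P' ≤ X') (hP : s '' (P' : Set Ω') = (P : Set Ω)) {x : Ω} (hx : x ∈ P) :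
    t x ∈ P' ∧ s (t x) = x ∧ x ∈ X := by
  have hx' : x ∈ (P : Set Ω) := hx
  rw [← hP] at hx'
  obtain ⟨y, hy, rfl⟩ := hx'
  rw [hi.ts y (hP' hy)]
  exact ⟨hy, rfl, hi.inv y (hP' hy)⟩

theorem mem_s {P' : Subgroup Ω'} {P : Subgroup Ω} (hP : s '' (P' : Set Ω') = (P : Set Ω)) {y : Ω'}
    (hy : y ∈ P') : s y ∈ P := by
  have h5 : s y ∈ (P : Set Ω) := by
    rw [← hP]
    exact ⟨y, hy, rfl⟩
  exact h5

/-- the maps of the image system. -/
def MM (t : Ω → Ω') (s : Ω' → Ω) {X : Subgroup Ω} (X' : Subgroup Ω') (A : FusionSystem X)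
    (P' : Subgroup Ω') (f' : Ω' → Ω') : Prop :=
  P' ≤ X' ∧ (∀ y ∈ P', f' y ∈ X') ∧ ∃ P : Subgroup Ω, s '' (P' : Set Ω') = (P : Set Ω) ∧
    IsMap A P (fun x => s (f' (t x)))

/-- the `MapData` of the image system. -/
def mkD {X : Subgroup Ω} {X' : Subgroup Ω'} (hi : IsoOn t s X X') (A : FusionSystem X) :
    Cfsg.Agent.Lib.Helper87Mk.MapData X' where
  M := MM t s X' A
  congr := by
    rintro P' f g ⟨hP', hv, P, hP, hm⟩ hfg
    refine ⟨hP', fun y hy => by rw [← hfg y hy]; exact hv y hy, P, hP, hm.congr ?_⟩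
    intro x hx
    show s (f (t x)) = s (g (t x))
    rw [hfg _ (mem_t hi hP' hP hx).1]
  le := by
    rintro P' f ⟨hP', hv, -⟩
    exact ⟨hP', hv⟩
  inj := by
    rintro P' f ⟨hP', hv, P, hP, hm⟩ x hx y hy hxy
    have h1 : s x = s y := by
      apply hm.inj (mem_s hP hx) (mem_s hP hy)
      show s (f (t (s x))) = s (f (t (s y)))
      rw [hi.ts x (hP' hx), hi.ts y (hP' hy), hxy]
    exact isoOn_inj (isoOn_symm hi) (hP' hx) (hP' hy) h1
  hom := by
    rintro P' f ⟨hP', hv, P, hP, hm⟩ x hx y hy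
    have h1 := hm.map_mul (mem_s hP hx) (mem_s hP hy)
    have h2 : s (f (t (s x * s y))) = s (f (t (s x))) * s (f (t (s y))) := h1
    rw [hi.mul _ (hi.inv x (hP' hx)) _ (hi.inv y (hP' hy)), hi.ts x (hP' hx), hi.ts y (hP' hy),
      ← (isoOn_symm hi).mul _ (hv x hx) _ (hv y hy)] at h2
    exact isoOn_inj (isoOn_symm hi) (hv _ (P'.mul_mem hx hy)) (X'.mul_mem (hv x hx) (hv y hy)) h2
  conj := by
    intro P' g hP' hg
    obtain ⟨P, hPX, hP⟩ := isoOn_exists_image (isoOn_symm hi) hP'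
    refine ⟨hP', fun y hy => X'.mul_mem (X'.mul_mem hg (hP' hy)) (X'.inv_mem hg), P, hP,
      (isMap_conj A hPX (hi.inv g hg)).congr ?_⟩
    intro x hx
    obtain ⟨h1, h2, h3⟩ := mem_t hi hP' hP hx
    show s g * x * (s g)⁻¹ = s (g * t x * g⁻¹)
    rw [(isoOn_symm hi).mul _ (X'.mul_mem hg (hP' h1)) _ (X'.inv_mem hg),
      (isoOn_symm hi).mul _ hg _ (hP' h1), h2, isoOn_inv (isoOn_symm hi) hg]
  comp := by
    rintro P' Q' f g ⟨hP', hv, P, hP, hm⟩ ⟨hQ', hw, Q, hQ, hn⟩ hfQ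
    refine ⟨hP', fun y hy => hw _ (hfQ y hy), P, hP, (hm.comp hn ?_).congr ?_⟩
    · intro x hx
      exact mem_s hQ (hfQ _ (mem_t hi hP' hP hx).1)
    · intro x hx
      show s (g (t (s (f (t x))))) = s (g (f (t x)))
      rw [hi.ts _ (hv _ (mem_t hi hP' hP hx).1)]
  inv := by
    rintro P' P'' f ⟨hP', hv, P, hP, hm⟩ hPP
    have hP''X : P'' ≤ X' := by
      intro y hy
      have hy' : y ∈ (P'' : Set Ω') := hy
      rw [← hPP] at hy'
      obtain ⟨x, hx, rfl⟩ := hy'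
      exact hv x hx
    obtain ⟨Q, hQX, hQ⟩ := isoOn_exists_image (isoOn_symm hi) hP''X
    have himg : (fun x => s (f (t x))) '' (P : Set Ω) = (Q : Set Ω) := by
      rw [← hQ, ← hPP]
      ext z
      constructor
      · rintro ⟨x, hx, rfl⟩
        exact ⟨f (t x), ⟨t x, (mem_t hi hP' hP hx).1, rfl⟩, rfl⟩
      · rintro ⟨_, ⟨y, hy, rfl⟩, rfl⟩
        refine ⟨s y, mem_s hP hy, ?_⟩
        show s (f (t (s y))) = s (f y)
        rw [hi.ts y (hP' hy)]
    obtain ⟨G, hG, hG1, hG2, hG3⟩ := hm.inv himg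
    have hGP : ∀ z ∈ Q, G z ∈ P := by
      intro z hz
      have h5 : G z ∈ (P : Set Ω) := by
        rw [← hG3]
        exact ⟨z, hz, rfl⟩
      exact h5
    refine ⟨fun y => t (G (s y)), ⟨hP''X, ?_, Q, hQ, hG.congr ?_⟩, ?_⟩
    · intro y hy
      exact hi.map _ (hm.le (hGP _ (mem_s hQ hy)))
    · intro x hx
      show G x = s (t (G (s (t x))))
      rw [hi.st x (hQX hx), hi.st _ (hm.le (hGP x hx))]
    · intro x hx
      show t (G (s (f x))) = x
      have h1 := hG1 (s x) (mem_s hP hx)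
      have h2 : G (s (f (t (s x)))) = s x := h1
      rw [hi.ts x (hP' hx)] at h2
      rw [h2, hi.ts x (hP' hx)]

/-- EXISTENCE of the image system.  `X'` := image subgroup (`isoOn_exists_image`), `IsoOn t s X X'` (`isoOn_restrict`).
`A' := (Helper87Mk.MapData.toFusion D)` with `D.M P' f' := P' ≤ X' ∧ ∃ P, s '' P' = P ∧ IsMap A P (fun x => s (f' (t x))) ∧
∀ y ∈ P', f' y ∈ X'`  (all `MapData` fields from the `IsMap` calculus of `A`: `IsMap.congr/comp/inv/conj`, and `t`, `s` mutually inverse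
homomorphisms).  Then `Push` both ways by `Helper87Mk.isMap_toFusion`. -/
theorem exists_corr {Y X : Subgroup Ω} {Y' : Subgroup Ω'} (h : IsoOn t s Y Y') (hX : X ≤ Y)
    (A : FusionSystem X) : ∃ (X' : Subgroup Ω') (A' : FusionSystem X'), Corr t s A A' := by
  obtain ⟨X', hX'Y', hXX'⟩ := isoOn_exists_image h hX
  have hi : IsoOn t s X X' := isoOn_restrict h hX hXX'
  refine ⟨X', (mkD hi A).toFusion, hi, ?_, ?_⟩
  · intro P P' f hf hPP'
    rw [Cfsg.Agent.Lib.Helper87Mk.isMap_toFusion]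
    have hP' : P' ≤ X' := isoOn_image_le hi hf.le hPP'
    have hP : s '' (P' : Set Ω') = (P : Set Ω) := isoOn_image_symm hi hf.le hPP'
    refine ⟨hP', ?_, P, hP, hf.congr ?_⟩
    · intro y hy
      exact hi.map _ (hf.mem (mem_s hP hy))
    · intro x hx
      show f x = s (t (f (s (t x))))
      rw [hi.st x (hf.le hx), hi.st _ (hf.mem hx)]
  · intro P' P f' hf' hP
    rw [Cfsg.Agent.Lib.Helper87Mk.isMap_toFusion] at hf'
    obtain ⟨hP', hv, P₀, hP₀, hm⟩ := hf'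
    have h0 : P₀ = P := SetLike.coe_injective (hP₀.symm.trans hP)
    rw [← h0]
    exact hm

end Cfsg.Agent.Lib.H89TrEx
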