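import Mathlib
import Cfsg.Agent.Lib.H89TrBasic

set_option autoImplicit false

namespace Cfsg.Agent.Lib.H89TrFac

open Cfsg Cfsg.FusionSystem Cfsg.Agent.Lib.Helper87Fusion Cfsg.Agent.Lib.H89TrDefs
  Cfsg.Agent.Lib.H89TrBasic

variable {Ω Ω₁ Ω₂ : Type*} [Group Ω] [Group Ω₁] [Group Ω₂]

theorem mem_preimageAlong {X : Subgroup Ω} (θ : X →* Ω₁) (P : Subgroup Ω₁) (x : Ω) :
    x ∈ preimageAlong θ P ↔ ∃ hx : x ∈ X, θ ⟨x, hx⟩ ∈ P := by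
  unfold preimageAlong
  constructor
  · rintro ⟨a, ha, rfl⟩
    exact ⟨a.2, ha⟩
  · rintro ⟨hx, h⟩
    exact ⟨⟨x, hx⟩, h, rfl⟩

theorem push {X S₀ : Subgroup Ω} {A : FusionSystem X} {S₁ : Subgroup Ω₁} {S₂ : Subgroup Ω₂}
    (θ₁ : X →* Ω₁) (θ₂ : X →* Ω₂) {E₁ : FusionSystem S₁} {E₂ : FusionSystem S₂}
    (h₁ : A.IsFactorSystem S₀ θ₁ E₁) (h₂ : A.IsFactorSystem S₀ θ₂ E₂) (t : Ω₁ → Ω₂) (s : Ω₂ → Ω₁)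
    (ht : ∀ x, t (θ₁ x) = θ₂ x) (hs : ∀ x, s (θ₂ x) = θ₁ x) : Push t s E₁ E₂ := by
  intro P₁ P₂ f hf himg
  obtain ⟨φ₁, hφ₁, hfφ⟩ := hf
  obtain ⟨hP₁, φ, hφ, hP, hφX, hP', hind⟩ := (h₁.2.2.2 P₁ φ₁).mp hφ₁
  have hr₁ : ∀ y ∈ S₁, ∃ x, θ₁ x = y := by
    intro y hy
    rw [← h₁.2.2.1] at hy
    exact hy
  have hmem : ∀ x : X, θ₁ x ∈ P₁ ↔ θ₂ x ∈ P₂ := by
    intro x
    constructor
    · intro h
      have : t (θ₁ x) ∈ t '' (P₁ : Set Ω₁) := ⟨_, h, rfl⟩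
      rw [himg, ht] at this
      exact this
    · intro h
      have : θ₂ x ∈ t '' (P₁ : Set Ω₁) := by rw [himg]; exact h
      obtain ⟨y, hy, hyx⟩ := this
      obtain ⟨x', rfl⟩ := hr₁ y (hP₁ hy)
      rw [ht] at hyx
      have h3 : θ₁ x' = θ₁ x := by rw [← hs, ← hs x, hyx]
      rw [← h3]; exact hy
  have hQ : preimageAlong θ₂ P₂ = preimageAlong θ₁ P₁ := by
    ext x
    rw [mem_preimageAlong, mem_preimageAlong]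
    constructor
    · rintro ⟨hx, h⟩
      exact ⟨hx, (hmem _).mpr h⟩
    · rintro ⟨hx, h⟩
      exact ⟨hx, (hmem _).mp h⟩
  have hP₂ : P₂ ≤ S₂ := by
    intro y hy
    have : y ∈ t '' (P₁ : Set Ω₁) := by rw [himg]; exact hy
    obtain ⟨y₁, hy₁, rfl⟩ := this
    obtain ⟨x, rfl⟩ := hr₁ y₁ (hP₁ hy₁)
    rw [ht, ← h₂.2.2.1]
    exact ⟨x, rfl⟩
  -- the key formula
  have key : ∀ x : preimageAlong θ₁ P₁, t (f (s (θ₂ ⟨x, hP x.2⟩))) = θ₂ ⟨φ x, hφX x⟩ := by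
    intro x
    rw [hs]
    have e1 := hfφ ⟨θ₁ ⟨x, hP x.2⟩, hP' x⟩
    have e2 : f (θ₁ ⟨x, hP x.2⟩) = θ₁ ⟨φ x, hφX x⟩ := by
      rw [← hind x]; exact e1.symm
    rw [e2, ht]
  have hsurj : ∀ y ∈ P₂, ∃ x : preimageAlong θ₁ P₁, θ₂ ⟨x, hP x.2⟩ = y := by
    intro y hy
    have hy' := hP₂ hy
    rw [← h₂.2.2.1] at hy'
    obtain ⟨x, rfl⟩ := hy'
    exact ⟨⟨x, (mem_preimageAlong _ _ _).mpr ⟨x.2, (hmem x).mpr hy⟩⟩, rfl⟩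
  let φ₂ : P₂ →* Ω₂ := MonoidHom.mk' (fun y : P₂ => t (f (s (y : Ω₂)))) (by
    intro a b
    obtain ⟨x, hx⟩ := hsurj a a.2
    obtain ⟨x', hx'⟩ := hsurj b b.2
    have e : ((a * b : P₂) : Ω₂) = θ₂ ⟨((x * x' : preimageAlong θ₁ P₁) : Ω), hP (x * x').2⟩ := by
      rw [Subgroup.coe_mul, ← hx, ← hx', ← map_mul]
      rfl
    rw [e, key, ← hx, ← hx', key, key, ← map_mul]
    congr 1
    apply Subtype.ext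
    exact map_mul φ x x')
  refine ⟨φ₂, ?_, fun x => rfl⟩
  rw [h₂.2.2.2 P₂ φ₂]
  refine ⟨hP₂, ?_⟩
  rw [hQ]
  exact ⟨φ, hφ, hP, hφX, fun x => (hmem _).mp (hP' x), fun x => key x⟩

theorem isoOn {X S₀ : Subgroup Ω} {A : FusionSystem X} {S₁ : Subgroup Ω₁} {S₂ : Subgroup Ω₂}
    (θ₁ : X →* Ω₁) (θ₂ : X →* Ω₂) {E₁ : FusionSystem S₁} {E₂ : FusionSystem S₂}
    (h₁ : A.IsFactorSystem S₀ θ₁ E₁) (h₂ : A.IsFactorSystem S₀ θ₂ E₂) (t : Ω₁ → Ω₂) (s : Ω₂ → Ω₁)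
    (ht : ∀ x, t (θ₁ x) = θ₂ x) (hs : ∀ x, s (θ₂ x) = θ₁ x) : IsoOn t s S₁ S₂ := by
  have hr₁ : ∀ y ∈ S₁, ∃ x, θ₁ x = y := by
    intro y hy
    rw [← h₁.2.2.1] at hy
    exact hy
  have hr₂ : ∀ y ∈ S₂, ∃ x, θ₂ x = y := by
    intro y hy
    rw [← h₂.2.2.1] at hy
    exact hy
  refine ⟨?_, ?_, ?_, ?_, ?_⟩
  · intro y hy
    obtain ⟨x, rfl⟩ := hr₁ y hy
    rw [ht, ← h₂.2.2.1]
    exact ⟨x, rfl⟩
  · intro y hy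
    obtain ⟨x, rfl⟩ := hr₂ y hy
    rw [hs, ← h₁.2.2.1]
    exact ⟨x, rfl⟩
  · intro y hy
    obtain ⟨x, rfl⟩ := hr₁ y hy
    rw [ht, hs]
  · intro y hy
    obtain ⟨x, rfl⟩ := hr₂ y hy
    rw [hs, ht]
  · intro y hy y' hy'
    obtain ⟨x, rfl⟩ := hr₁ y hy
    obtain ⟨x', rfl⟩ := hr₁ y' hy'
    rw [← map_mul, ht, ht, ht, map_mul]

theorem eq_iff {X S₀ : Subgroup Ω} {A : FusionSystem X} {S₁ : Subgroup Ω₁} {S₂ : Subgroup Ω₂}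
    (θ₁ : X →* Ω₁) (θ₂ : X →* Ω₂) {E₁ : FusionSystem S₁} {E₂ : FusionSystem S₂}
    (h₁ : A.IsFactorSystem S₀ θ₁ E₁) (h₂ : A.IsFactorSystem S₀ θ₂ E₂) (x x' : X)
    (h : θ₁ x = θ₁ x') : θ₂ x = θ₂ x' := by
  have e1 : θ₁ (x⁻¹ * x') = 1 := by rw [map_mul, map_inv, h, inv_mul_cancel]
  have e2 := (h₁.2.1 _).mp e1
  have e3 := (h₂.2.1 _).mpr e2
  rw [map_mul, map_inv, inv_mul_eq_one] at e3
  exact e3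

/-- two factor systems of `A` modulo the same `S₀` (read through `θ₁`, `θ₂`) are images of each other. -/
theorem fac {X S₀ : Subgroup Ω} {A : FusionSystem X} {S₁ : Subgroup Ω₁} {S₂ : Subgroup Ω₂}
    (θ₁ : X →* Ω₁) (θ₂ : X →* Ω₂) {E₁ : FusionSystem S₁} {E₂ : FusionSystem S₂}
    (h₁ : A.IsFactorSystem S₀ θ₁ E₁) (h₂ : A.IsFactorSystem S₀ θ₂ E₂) :
    ∃ (t : Ω₁ → Ω₂) (s : Ω₂ → Ω₁), Corr t s E₁ E₂ := by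
  classical
  let t : Ω₁ → Ω₂ := fun y => if h : ∃ x : X, θ₁ x = y then θ₂ h.choose else 1
  let s : Ω₂ → Ω₁ := fun y => if h : ∃ x : X, θ₂ x = y then θ₁ h.choose else 1
  have ht : ∀ x, t (θ₁ x) = θ₂ x := by
    intro x
    have h : ∃ x' : X, θ₁ x' = θ₁ x := ⟨x, rfl⟩
    show (if h : ∃ x' : X, θ₁ x' = θ₁ x then θ₂ h.choose else 1) = θ₂ x
    rw [dif_pos h]
    exact eq_iff θ₁ θ₂ h₁ h₂ _ _ h.choose_spec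
  have hs : ∀ x, s (θ₂ x) = θ₁ x := by
    intro x
    have h : ∃ x' : X, θ₂ x' = θ₂ x := ⟨x, rfl⟩
    show (if h : ∃ x' : X, θ₂ x' = θ₂ x then θ₁ h.choose else 1) = θ₁ x
    rw [dif_pos h]
    exact eq_iff θ₂ θ₁ h₂ h₁ _ _ h.choose_spec
  exact ⟨t, s, isoOn θ₁ θ₂ h₁ h₂ t s ht hs, push θ₁ θ₂ h₁ h₂ t s ht hs, push θ₂ θ₁ h₂ h₁ s t hs ht⟩

end Cfsg.Agent.Lib.H89TrFac
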