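import Mathlib
import Cfsg.Agent.Lib.H89TrBasic

set_option autoImplicit false

namespace Cfsg.Agent.Lib.H89TrFacC

open Cfsg Cfsg.FusionSystem Cfsg.Agent.Lib.Helper87Fusion Cfsg.Agent.Lib.H89TrDefs
  Cfsg.Agent.Lib.H89TrBasic

variable {Ω Ω' Ω₂ : Type*} [Group Ω] [Group Ω'] [Group Ω₂] {t : Ω → Ω'} {s : Ω' → Ω}

theorem mem_pre {X : Subgroup Ω} (α : X →* Ω₂) (P₂ : Subgroup Ω₂) (x : Ω) :
    x ∈ preimageAlong α P₂ ↔ ∃ hx : x ∈ X, α ⟨x, hx⟩ ∈ P₂ := by
  unfold preimageAlong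
  constructor
  · rintro ⟨y, hy, rfl⟩
    exact ⟨y.2, hy⟩
  · rintro ⟨hx, h⟩
    exact ⟨⟨x, hx⟩, h, rfl⟩

/-- a factor system of the image system `A'` is a factor system of `A` (read through the composite).
`preimageAlong (θ'.comp τ) P₂` has carrier `s '' (preimageAlong θ' P₂)`; a hom `φ` on it is in `A.Hom` iff the transported hom is in `A'.Hom`
(`corr_isMap_iff`), and `InducedAlong (θ'.comp τ) φ φ₂ ↔ InducedAlong θ' φ' φ₂`. -/
theorem facC {X S₀ : Subgroup Ω} {X' S₀' : Subgroup Ω'} {A : FusionSystem X} {A' : FusionSystem X'}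
    (h : Corr t s A A') (hS₀ : S₀ ≤ X) (hS : t '' (S₀ : Set Ω) = (S₀' : Set Ω')) (τ : X →* X')
    (hτ : ∀ x : X, ((τ x : X') : Ω') = t x) {S₂ : Subgroup Ω₂} (θ' : X' →* Ω₂) {E₂ : FusionSystem S₂}
    (h' : A'.IsFactorSystem S₀' θ' E₂) : A.IsFactorSystem S₀ (θ'.comp τ) E₂ := by
  obtain ⟨hS₀', hker', hrange', hhom'⟩ := h'
  have hiso := h.1
  have hτ' : ∀ (x : Ω) (hx : x ∈ X), τ ⟨x, hx⟩ = ⟨t x, hiso.map x hx⟩ :=
    fun x hx => Subtype.ext (hτ ⟨x, hx⟩)
  refine ⟨hS₀, ?_, ?_, ?_⟩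
  · intro x
    rw [MonoidHom.comp_apply, hker', hτ]
    constructor
    · intro hx
      have h1 : t x ∈ (S₀' : Set Ω') := hx
      rw [← hS] at h1
      obtain ⟨y, hy, hyx⟩ := h1
      rw [← isoOn_inj hiso (hS₀ hy) x.2 hyx]
      exact hy
    · intro hx
      have h1 : t x ∈ (S₀' : Set Ω') := by
        rw [← hS]
        exact ⟨x, hx, rfl⟩
      exact h1
  · rw [← hrange']
    ext z
    constructor
    · rintro ⟨x, rfl⟩
      exact ⟨τ x, rfl⟩
    · rintro ⟨y, rfl⟩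
      refine ⟨⟨s y, hiso.inv y y.2⟩, ?_⟩
      rw [MonoidHom.comp_apply, hτ']
      congr 1
      exact Subtype.ext (hiso.ts y y.2)
  · intro P₂ φ₂
    rw [hhom']
    apply and_congr_right
    intro hP₂
    have hPX : preimageAlong (θ'.comp τ) P₂ ≤ X := fun x hx => ((mem_pre _ _ _).1 hx).1
    have himg : t '' (preimageAlong (θ'.comp τ) P₂ : Set Ω) = (preimageAlong θ' P₂ : Set Ω') := by
      ext y
      constructor
      · rintro ⟨x, hx, rfl⟩
        obtain ⟨hxX, hx2⟩ := (mem_pre _ _ _).1 hx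
        rw [MonoidHom.comp_apply, hτ'] at hx2
        exact (mem_pre _ _ _).2 ⟨_, hx2⟩
      · intro hy
        obtain ⟨hyX, hy2⟩ := (mem_pre _ _ _).1 hy
        refine ⟨s y, (mem_pre _ _ _).2 ⟨hiso.inv y hyX, ?_⟩, hiso.ts y hyX⟩
        rw [MonoidHom.comp_apply, hτ']
        have e : (⟨t (s y), hiso.map _ (hiso.inv y hyX)⟩ : X') = ⟨y, hyX⟩ :=
          Subtype.ext (hiso.ts y hyX)
        rw [e]
        exact hy2
    have himg' : s '' (preimageAlong θ' P₂ : Set Ω') = (preimageAlong (θ'.comp τ) P₂ : Set Ω) :=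
      isoOn_image_symm hiso hPX himg
    constructor
    · rintro ⟨φ', hφ', hP', hφ'X, hP₂', hind⟩
      obtain ⟨φ, hφ, hφf⟩ := h.2.2 _ _ _ (isMap_tot hφ') himg'
      have hmem : ∀ x : preimageAlong (θ'.comp τ) P₂, t x ∈ preimageAlong θ' P₂ := fun x => by
        have h1 : t x ∈ (preimageAlong θ' P₂ : Set Ω') := by
          rw [← himg]
          exact ⟨x, x.2, rfl⟩
        exact h1
      have hφx : ∀ x : preimageAlong (θ'.comp τ) P₂, φ x = s (φ' ⟨t x, hmem x⟩) := by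
        intro x
        rw [hφf x]
        show s (tot φ' (t x)) = _
        rw [tot_of_mem φ' (hmem x)]
      have hφX : ∀ x : preimageAlong (θ'.comp τ) P₂, φ x ∈ X := by
        intro x
        rw [hφx]
        exact hiso.inv _ (hφ'X _)
      have e1 : ∀ x : preimageAlong (θ'.comp τ) P₂, (θ'.comp τ) ⟨x, hPX x.2⟩
          = θ' ⟨t x, hP' (hmem x)⟩ := by
        intro x
        rw [MonoidHom.comp_apply, hτ']
      have e2 : ∀ x : preimageAlong (θ'.comp τ) P₂, (θ'.comp τ) ⟨φ x, hφX x⟩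
          = θ' ⟨φ' ⟨t x, hmem x⟩, hφ'X _⟩ := by
        intro x
        rw [MonoidHom.comp_apply, hτ']
        congr 1
        apply Subtype.ext
        show t (φ x) = _
        rw [hφx, hiso.ts _ (hφ'X _)]
      refine ⟨φ, hφ, hPX, hφX, fun x => ?_, fun x => ?_⟩
      · rw [e1]
        exact hP₂' ⟨t x, hmem x⟩
      · rw [e2, ← hind ⟨t x, hmem x⟩]
        exact congrArg φ₂ (Subtype.ext (e1 x))
    · rintro ⟨φ, hφ, hP, hφX, hP₂x, hind⟩
      obtain ⟨φ', hφ', hφ'f⟩ := h.2.1 _ _ _ (isMap_tot hφ) himg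
      have hP'X' : preimageAlong θ' P₂ ≤ X' := fun x hx => ((mem_pre _ _ _).1 hx).1
      have hmem : ∀ y : preimageAlong θ' P₂, s y ∈ preimageAlong (θ'.comp τ) P₂ := fun y => by
        have h1 : s y ∈ (preimageAlong (θ'.comp τ) P₂ : Set Ω) := by
          rw [← himg']
          exact ⟨y, y.2, rfl⟩
        exact h1
      have hφy : ∀ y : preimageAlong θ' P₂, φ' y = t (φ ⟨s y, hmem y⟩) := by
        intro y
        rw [hφ'f y]
        show t (tot φ (s y)) = _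
        rw [tot_of_mem φ (hmem y)]
      have hφ'X : ∀ y : preimageAlong θ' P₂, φ' y ∈ X' := by
        intro y
        rw [hφy]
        exact hiso.map _ (hφX _)
      have e1 : ∀ y : preimageAlong θ' P₂, (θ'.comp τ) ⟨s y, hP (hmem y)⟩
          = θ' ⟨y, hP'X' y.2⟩ := by
        intro y
        rw [MonoidHom.comp_apply, hτ']
        congr 1
        exact Subtype.ext (hiso.ts _ (hP'X' y.2))
      have e2 : ∀ y : preimageAlong θ' P₂, (θ'.comp τ) ⟨φ ⟨s y, hmem y⟩, hφX _⟩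
          = θ' ⟨φ' y, hφ'X y⟩ := by
        intro y
        rw [MonoidHom.comp_apply, hτ']
        congr 1
        apply Subtype.ext
        show t (φ ⟨s y, hmem y⟩) = φ' y
        rw [hφy]
      refine ⟨φ', hφ', hP'X', hφ'X, fun y => ?_, fun y => ?_⟩
      · rw [← e1]
        exact hP₂x ⟨s y, hmem y⟩
      · rw [← e2, ← hind ⟨s y, hmem y⟩]
        exact congrArg φ₂ (Subtype.ext (e1 y).symm)

end Cfsg.Agent.Lib.H89TrFacC
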