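import Mathlib
import Cfsg.Agent.Lib.H89TrGeo

set_option autoImplicit false

namespace Cfsg.Agent.Lib.H89TrNorExt

open Cfsg Cfsg.FusionSystem Cfsg.Agent.Lib.Helper87Fusion Cfsg.Agent.Lib.H89TrDefs
  Cfsg.Agent.Lib.H89TrBasic Cfsg.Agent.Lib.H89TrGeo

variable {Ω Ω' : Type*} [Group Ω] [Group Ω'] {t : Ω → Ω'} {s : Ω' → Ω}

/-- the extension condition of `IsNormalIn` at the level of total maps (elimination form). -/
theorem ext_elim {X Y : Subgroup Ω} {A : FusionSystem X} {B : FusionSystem Y} {p : ℕ}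
    (h : A.IsNormalIn B p) {a : Ω → Ω} (ha : IsMap A X a) (haX : a '' (X : Set Ω) = (X : Set Ω)) :
    ∃ b, IsMap B (X ⊔ centralizerIn Y X) b ∧
      b '' ((X ⊔ centralizerIn Y X : Subgroup Ω) : Set Ω) = ((X ⊔ centralizerIn Y X : Subgroup Ω) : Set Ω) ∧
      (∀ x ∈ X, b x = a x) ∧
      ∀ c ∈ centralizerIn Y X, c⁻¹ * b c ∈ X ⊓ Subgroup.centralizer (X : Set Ω) := by
  obtain ⟨α, hα, hαa⟩ := ha.exists_aut haX
  obtain ⟨β, hβ, hβ1, hβ2⟩ := h.2 α hα
  have hXY : X ≤ Y := h.1.2.2.2.1.1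
  have hle : X ⊔ centralizerIn Y X ≤ Y := sup_le hXY inf_le_left
  obtain ⟨hb, hbim⟩ := Cfsg.Agent.Lib.Helper88Normal.isMap_of_mem_autGroup hle hβ
  refine ⟨_, hb, hbim, ?_, ?_⟩
  · intro x hx
    rw [tot_of_mem _ (Subgroup.mem_sup_left hx)]
    exact (hβ1 ⟨x, hx⟩).trans (hαa ⟨x, hx⟩)
  · intro c hc
    rw [tot_of_mem _ (Subgroup.mem_sup_right hc)]
    exact hβ2 ⟨c, Subgroup.mem_sup_right hc⟩ hc

/-- transport of the extension condition. -/
theorem ext {X Y : Subgroup Ω} {X' Y' : Subgroup Ω'} [Finite Y] {A : FusionSystem X}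
    {A' : FusionSystem X'} {B : FusionSystem Y} {B' : FusionSystem Y'} {p : ℕ} (hA : Corr t s A A')
    (hB : Corr t s B B') (h : A.IsNormalIn B p) :
    ∀ a : Ω' → Ω', IsMap A' X' a → ∃ b, IsMap B' (X' ⊔ centralizerIn Y' X') b ∧
      b '' ((X' ⊔ centralizerIn Y' X' : Subgroup Ω') : Set Ω') =
        ((X' ⊔ centralizerIn Y' X' : Subgroup Ω') : Set Ω') ∧ (∀ x ∈ X', b x = a x) ∧
      ∀ c ∈ centralizerIn Y' X', c⁻¹ * b c ∈ X' ⊓ Subgroup.centralizer (X' : Set Ω') := by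
  intro a' ha'
  have hXY : X ≤ Y := h.1.2.2.2.1.1
  have hXX' : t '' (X : Set Ω) = (X' : Set Ω') := isoOn_image hA.1
  have hX'X : s '' (X' : Set Ω') = (X : Set Ω) := isoOn_image (isoOn_symm hA.1)
  have ha : IsMap A X (fun x => s (a' (t x))) := hA.2.2 X' X a' ha' hX'X
  have hfin : (X : Set Ω).Finite := by
    have : Finite X := Finite.of_injective (Subgroup.inclusion hXY) (Subgroup.inclusion_injective hXY)
    exact Set.toFinite _
  have haX : (fun x => s (a' (t x))) '' (X : Set Ω) = (X : Set Ω) := by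
    apply Set.eq_of_subset_of_ncard_le _ _ hfin
    · rintro _ ⟨x, hx, rfl⟩
      exact ha.mem hx
    · rw [Set.ncard_image_of_injOn]
      intro x hx y hy hxy
      exact ha.inj hx hy hxy
  obtain ⟨b, hb, hbim, hbx, hbc⟩ := ext_elim h ha haX
  have hC : t '' ((centralizerIn Y X : Subgroup Ω) : Set Ω)
      = ((centralizerIn Y' X' : Subgroup Ω') : Set Ω') := image_centralizerIn hB.1 hXY hXX'
  have hCY : centralizerIn Y X ≤ Y := inf_le_left
  have hRY : X ⊔ centralizerIn Y X ≤ Y := sup_le hXY hCY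
  have hR : t '' ((X ⊔ centralizerIn Y X : Subgroup Ω) : Set Ω)
      = ((X' ⊔ centralizerIn Y' X' : Subgroup Ω') : Set Ω') := image_sup hB.1 hXY hCY hXX' hC
  have hR' : s '' ((X' ⊔ centralizerIn Y' X' : Subgroup Ω') : Set Ω')
      = ((X ⊔ centralizerIn Y X : Subgroup Ω) : Set Ω) := isoOn_image_symm hB.1 hRY hR
  have hC' : s '' ((centralizerIn Y' X' : Subgroup Ω') : Set Ω')
      = ((centralizerIn Y X : Subgroup Ω) : Set Ω) := isoOn_image_symm hB.1 hCY hC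
  refine ⟨fun y => t (b (s y)), hB.2.1 _ _ b hb hR, ?_, ?_, ?_⟩
  · have e : (fun y => t (b (s y))) '' ((X' ⊔ centralizerIn Y' X' : Subgroup Ω') : Set Ω')
        = t '' (b '' (s '' ((X' ⊔ centralizerIn Y' X' : Subgroup Ω') : Set Ω'))) := by
      rw [Set.image_image, Set.image_image]
    rw [e, hR', hbim, hR]
  · intro x' hx'
    show t (b (s x')) = a' x'
    rw [hbx _ (hA.1.inv x' hx')]
    show t (s (a' (t (s x')))) = a' x'
    rw [hA.1.ts x' hx', hA.1.ts _ (ha'.mem hx')]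
  · intro c' hc'
    have hc : s c' ∈ centralizerIn Y X := by
      have : s c' ∈ s '' ((centralizerIn Y' X' : Subgroup Ω') : Set Ω') := ⟨c', hc', rfl⟩
      rw [hC'] at this
      exact this
    have hc'Y : c' ∈ Y' := (inf_le_left : centralizerIn Y' X' ≤ Y') hc'
    have hz := hbc _ hc
    have hcY : s c' ∈ Y := hCY hc
    have hbY : b (s c') ∈ Y := hb.mem (Subgroup.mem_sup_right hc)
    have e : t ((s c')⁻¹ * b (s c')) = c'⁻¹ * t (b (s c')) := by
      rw [hB.1.mul _ (Y.inv_mem hcY) _ hbY, isoOn_inv hB.1 hcY, hB.1.ts c' hc'Y]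
    show c'⁻¹ * t (b (s c')) ∈ _
    rw [← e]
    exact ⟨hA.1.map _ hz.1, (mem_centralizer_iff hA.1 hz.1).1 hz.2⟩

end Cfsg.Agent.Lib.H89TrNorExt
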