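import Mathlib
import Cfsg.Agent.Lib.H89TrBasic

set_option autoImplicit false

namespace Cfsg.Agent.Lib.H89TrSub

open Cfsg Cfsg.FusionSystem Cfsg.Agent.Lib.Helper87Fusion Cfsg.Agent.Lib.H89TrDefs
  Cfsg.Agent.Lib.H89TrBasic

variable {Ω Ω' : Type*} [Group Ω] [Group Ω'] {t : Ω → Ω'} {s : Ω' → Ω}

/-- `φ' ∈ A'.Hom P'` → `IsMap A' P' (tot φ')` → (`Push s t`) `IsMap A P (s ∘ tot φ' ∘ t)`, `P` with `s '' P' = P` → `IsMap B P _`
(`Helper88Normal.isMap_of_subsystem`) → (`Push t s` for `B`, `t '' P = P'`) → `IsMap.congr` (`t (s (tot φ' (t (s y)))) = tot φ' y` on `P'`,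
values in `X'`) → `IsMap.hom_mem`. -/
theorem sub {X Y : Subgroup Ω} {X' Y' : Subgroup Ω'} {A : FusionSystem X} {A' : FusionSystem X'}
    {B : FusionSystem Y} {B' : FusionSystem Y'} (hA : Corr t s A A') (hB : Corr t s B B')
    (h : A.IsSubsystemOf B) : A'.IsSubsystemOf B' := by
  intro P' φ' hφ'
  have h1 : IsMap A' P' (tot φ') := isMap_tot hφ'
  have hP'X' : P' ≤ X' := h1.le
  obtain ⟨P, hPX, hP⟩ := isoOn_exists_image (isoOn_symm hA.1) hP'X'
  have h2 : IsMap A P (fun x => s (tot φ' (t x))) := hA.2.2 P' P _ h1 hP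
  have h3 : IsMap B P (fun x => s (tot φ' (t x))) :=
    Cfsg.Agent.Lib.Helper88Normal.isMap_of_subsystem h h2
  have hP2 : t '' (P : Set Ω) = (P' : Set Ω') := isoOn_image_symm (isoOn_symm hA.1) hP'X' hP
  have h4 := hB.2.1 P P' _ h3 hP2
  refine (h4.congr ?_).hom_mem (fun x => (tot_apply φ' x).symm)
  intro y hy
  show t (s (tot φ' (t (s y)))) = tot φ' y
  rw [hA.1.ts y (hP'X' hy), hA.1.ts _ (h1.mem hy)]

/-- strongly closed subgroups correspond. -/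
theorem stronglyClosed {X Y : Subgroup Ω} {X' Y' : Subgroup Ω'} {B : FusionSystem Y}
    {B' : FusionSystem Y'} (hB : Corr t s B B') (hXX' : t '' (X : Set Ω) = (X' : Set Ω'))
    (h : B.StronglyClosed X) : B'.StronglyClosed X' := by
  obtain ⟨hXY, hcl⟩ := h
  have hX'Y' : X' ≤ Y' := isoOn_image_le hB.1 hXY hXX'
  refine ⟨hX'Y', ?_⟩
  intro R' hR' φ' hφ' x
  have h1 : IsMap B' R' (tot φ') := isMap_tot hφ'
  have hR'Y' : R' ≤ Y' := hR'.trans hX'Y'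
  obtain ⟨R, hRY, hR⟩ := isoOn_exists_image (isoOn_symm hB.1) hR'Y'
  have h2 : IsMap B R (fun z => s (tot φ' (t z))) := hB.2.2 R' R _ h1 hR
  have hsX : s '' (X' : Set Ω') = (X : Set Ω) := isoOn_image_symm hB.1 hXY hXX'
  have hRX : R ≤ X := by
    intro z hz
    have hz' : z ∈ (R : Set Ω) := hz
    rw [← hR] at hz'
    obtain ⟨y, hy, rfl⟩ := hz'
    have h5 : s y ∈ (X : Set Ω) := by
      rw [← hsX]
      exact ⟨y, hR' hy, rfl⟩
    exact h5
  have hsx : s (x : Ω') ∈ R := by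
    have h5 : s (x : Ω') ∈ (R : Set Ω) := by
      rw [← hR]
      exact ⟨x, x.2, rfl⟩
    exact h5
  obtain ⟨ψ, hψ, hψf⟩ := h2
  have h4 : s (tot φ' (t (s (x : Ω')))) ∈ X := by
    have h5 := hcl R hRX ψ hψ ⟨s x, hsx⟩
    rw [hψf] at h5
    exact h5
  rw [hB.1.ts _ (hR'Y' x.2), tot_apply] at h4
  have h6 : t (s (φ' x)) ∈ (X' : Set Ω') := by
    rw [← hXX']
    exact ⟨_, h4, rfl⟩
  have h7 : φ' x ∈ Y' := by
    have := h1.mem x.2
    rwa [tot_apply] at this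
  rw [hB.1.ts _ h7] at h6
  exact h6

end Cfsg.Agent.Lib.H89TrSub
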