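import Mathlib
import Cfsg.Agent.Lib.H89TrSub

set_option autoImplicit false

namespace Cfsg.Agent.Lib.H89TrNorInv

open Cfsg Cfsg.FusionSystem Cfsg.Agent.Lib.Helper87Fusion Cfsg.Agent.Lib.H89TrDefs
  Cfsg.Agent.Lib.H89TrBasic

variable {Ω Ω' : Type*} [Group Ω] [Group Ω'] {t : Ω → Ω'} {s : Ω' → Ω}

theorem mem_img {α β : Type*} [Group α] [Group β] {f : α → β} {P : Subgroup α} {Q : Subgroup β}
    (h : f '' (P : Set α) = (Q : Set β)) {x : α} (hx : x ∈ P) : f x ∈ Q := by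
  have : f x ∈ (Q : Set β) := by rw [← h]; exact ⟨x, hx, rfl⟩
  exact this

theorem ex_img {α β : Type*} [Group α] [Group β] {f : α → β} {P : Subgroup α} {Q : Subgroup β}
    (h : f '' (P : Set α) = (Q : Set β)) {y : β} (hy : y ∈ Q) : ∃ x ∈ P, f x = y := by
  have : y ∈ (Q : Set β) := hy
  rw [← h] at this
  exact this

/-- invariant subsystems correspond. -/
theorem invariant {X Y : Subgroup Ω} {X' Y' : Subgroup Ω'} [Finite Y] {A : FusionSystem X}
    {A' : FusionSystem X'} {B : FusionSystem Y} {B' : FusionSystem Y'} (hA : Corr t s A A')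
    (hB : Corr t s B B') (h : A.IsInvariantIn B) : A'.IsInvariantIn B' := by
  have : Finite Y' := isoOn_finite hB.1
  have hT : B'.StronglyClosed X' := H89TrSub.stronglyClosed hB (isoOn_image hA.1) h.2.1
  have hXY : X ≤ Y := h.2.1.1
  have hX'Y' : X' ≤ Y' := hT.1
  have hsX : s '' (X' : Set Ω') = (X : Set Ω) := isoOn_image (isoOn_symm hA.1)
  refine Cfsg.Agent.Lib.Helper90NormalCrit.isInvariantIn_of ?_ hT ?_ ?_
  · intro P f hf
    exact Cfsg.Agent.Lib.Helper88Normal.isMap_of_subsystem (H89TrSub.sub hA hB h.1) hf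
  · intro P' Q' f' a' hf' ha' hQ'
    have hP'X' : P' ≤ X' := hf'.le
    obtain ⟨P, hPX, hsP⟩ := isoOn_exists_image (isoOn_symm hA.1) hP'X'
    have hf : IsMap A P (fun x => s (f' (t x))) := hA.2.2 P' P f' hf' hsP
    have ha : IsMap B X (fun x => s (a' (t x))) := hB.2.2 X' X a' ha' hsX
    have haX := Cfsg.Agent.Lib.Helper90Inner.image_eq_of_stronglyClosed h.2.1 ha
    have ha'X' := Cfsg.Agent.Lib.Helper90Inner.image_eq_of_stronglyClosed hT ha'
    have hQ'X' : Q' ≤ X' := by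
      intro y hy
      obtain ⟨x, hx, rfl⟩ := ex_img hQ' hy
      exact mem_img ha'X' (hP'X' hx)
    obtain ⟨Q, hQX, hsQ⟩ := isoOn_exists_image (isoOn_symm hA.1) hQ'X'
    have htQ : t '' (Q : Set Ω) = (Q' : Set Ω') := isoOn_image_symm (isoOn_symm hA.1) hQ'X' hsQ
    have haP : (fun x => s (a' (t x))) '' (P : Set Ω) = (Q : Set Ω) := by
      ext z
      constructor
      · rintro ⟨x, hx, rfl⟩
        obtain ⟨y, hy, rfl⟩ := ex_img hsP hx
        show s (a' (t (s y))) ∈ Q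
        rw [hA.1.ts y (hP'X' hy)]
        exact mem_img hsQ (mem_img hQ' hy)
      · intro hz
        obtain ⟨w, hw, rfl⟩ := ex_img hsQ hz
        obtain ⟨y, hy, rfl⟩ := ex_img hQ' hw
        refine ⟨s y, mem_img hsP hy, ?_⟩
        show s (a' (t (s y))) = _
        rw [hA.1.ts y (hP'X' hy)]
    obtain ⟨g, -, hg1, -, -⟩ := ha.inv haX
    have hd : IsMap A Q (fun z => (fun x => s (a' (t x))) ((fun x => s (f' (t x))) (g z))) :=
      Cfsg.Agent.Lib.Helper88Normal.conj_aut h hPX hf ha haX haP (fun x hx => by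
        show s (a' (t (s (f' (t (g (s (a' (t x))))))))) = s (a' (t (s (f' (t x)))))
        have := hg1 x (hPX hx)
        rw [this])
    refine ⟨_, hA.2.1 Q Q' _ hd htQ, fun y hy => ?_⟩
    have hyX' : y ∈ X' := hP'X' hy
    have h1 : g (s (a' y)) = s y := by
      have := hg1 (s y) (hA.1.inv y hyX')
      rwa [hA.1.ts y hyX'] at this
    show t (s (a' (t (s (f' (t (g (s (a' y))))))))) = a' (f' y)
    rw [h1, hA.1.ts y hyX', hA.1.ts _ (hf'.mem hy), hB.1.ts _ (ha'.mem (hf'.mem hy))]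
  · intro P' f' hP'X' hf'
    obtain ⟨P, hPX, hsP⟩ := isoOn_exists_image (isoOn_symm hA.1) hP'X'
    have htP : t '' (P : Set Ω) = (P' : Set Ω') := isoOn_image_symm (isoOn_symm hA.1) hP'X' hsP
    have hf : IsMap B P (fun x => s (f' (t x))) := hB.2.2 P' P f' hf' hsP
    obtain ⟨a, c, ha, -, hc, hac⟩ := Cfsg.Agent.Lib.Helper88Normal.frattini h hPX hf
    refine ⟨_, _, hB.2.1 X X' a ha (isoOn_image hA.1), hA.2.1 P P' c hc htP, fun y hy => ?_⟩
    have hsy : s y ∈ P := mem_img hsP hy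
    show f' y = t (a (s (t (c (s y)))))
    rw [hA.1.st _ (hc.mem hsy), ← hac _ hsy]
    show f' y = t (s (f' (t (s y))))
    rw [hA.1.ts y (hP'X' hy), hB.1.ts _ (hf'.mem hy)]

end Cfsg.Agent.Lib.H89TrNorInv
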