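import Mathlib
import Cfsg.Agent.Lib.H89TrBasic

set_option autoImplicit false

namespace Cfsg.Agent.Lib.H89TrToFac

open Cfsg Cfsg.FusionSystem Cfsg.Agent.Lib.Helper87Fusion Cfsg.Agent.Lib.H89TrDefs
  Cfsg.Agent.Lib.H89TrBasic

variable {Ω Ω' : Type*} [Group Ω] [Group Ω'] {t : Ω → Ω'} {s : Ω' → Ω}

theorem mem_pre {X : Subgroup Ω} (τ : X →* Ω') (P' : Subgroup Ω') {x : Ω} :
    x ∈ preimageAlong τ P' ↔ ∃ hx : x ∈ X, τ ⟨x, hx⟩ ∈ P' := by
  unfold preimageAlong
  constructor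
  · rintro ⟨y, hy, rfl⟩
    exact ⟨y.2, hy⟩
  · rintro ⟨hx, h⟩
    exact ⟨⟨x, hx⟩, h, rfl⟩

theorem pre_le {X : Subgroup Ω} (τ : X →* Ω') (P' : Subgroup Ω') : preimageAlong τ P' ≤ X :=
  fun _ hx => ((mem_pre τ P').1 hx).1

theorem image_pre {X : Subgroup Ω} {X' : Subgroup Ω'} (hI : IsoOn t s X X') (τ : X →* Ω')
    (hτ : ∀ x : X, τ x = t x) {P' : Subgroup Ω'} (hP' : P' ≤ X') :
    t '' (preimageAlong τ P' : Set Ω) = (P' : Set Ω') := by
  ext y
  constructor
  · rintro ⟨x, hx, rfl⟩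
    obtain ⟨hxX, h⟩ := (mem_pre τ P').1 hx
    rw [hτ] at h
    exact h
  · intro hy
    refine ⟨s y, (mem_pre τ P').2 ⟨hI.inv y (hP' hy), ?_⟩, hI.ts y (hP' hy)⟩
    rw [hτ]
    show t (s y) ∈ P'
    rw [hI.ts y (hP' hy)]
    exact hy

theorem pre_eq_of_image {X : Subgroup Ω} {X' : Subgroup Ω'} (hI : IsoOn t s X X') (τ : X →* Ω')
    (hτ : ∀ x : X, τ x = t x) {P : Subgroup Ω} {P' : Subgroup Ω'} (hP : P ≤ X)
    (hPP' : t '' (P : Set Ω) = (P' : Set Ω')) : preimageAlong τ P' = P := by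
  ext x
  rw [mem_pre]
  constructor
  · rintro ⟨hx, h⟩
    rw [hτ] at h
    have h' : t x ∈ (P' : Set Ω') := h
    rw [← hPP'] at h'
    obtain ⟨z, hz, hzx⟩ := h'
    have := isoOn_inj hI (hP hz) hx hzx
    rw [← this]
    exact hz
  · intro hx
    refine ⟨hP hx, ?_⟩
    rw [hτ]
    have : t x ∈ t '' (P : Set Ω) := ⟨x, hx, rfl⟩
    rw [hPP'] at this
    exact this

/-- the last clause of `IsFactorSystem` in the `IsMap` calculus -/
theorem induced_iff {X : Subgroup Ω} (τ : X →* Ω') (hτ : ∀ x : X, τ x = t x) {P : Subgroup Ω}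
    {P' : Subgroup Ω'} (φ : P →* Ω) (φ' : P' →* Ω') :
    InducedAlong τ φ φ' ↔ P ≤ X ∧ (∀ x ∈ P, tot φ x ∈ X) ∧ (∀ x ∈ P, t x ∈ P') ∧
      ∀ x ∈ P, tot φ' (t x) = t (tot φ x) := by
  constructor
  · rintro ⟨hP, hφ, hP', h⟩
    have h3 : ∀ x ∈ P, t x ∈ P' := by
      intro x hx
      have := hP' ⟨x, hx⟩
      rw [hτ] at this
      exact this
    refine ⟨hP, ?_, h3, ?_⟩
    · intro x hx
      rw [tot_of_mem φ hx]
      exact hφ ⟨x, hx⟩
    · intro x hx
      have e := h ⟨x, hx⟩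
      have e2 : τ ⟨φ ⟨x, hx⟩, hφ ⟨x, hx⟩⟩ = t (φ ⟨x, hx⟩) := hτ _
      rw [tot_of_mem φ hx, tot_of_mem φ' (h3 x hx), ← e2, ← e]
      congr 1
      apply Subtype.ext
      exact (hτ ⟨x, hP hx⟩).symm
  · rintro ⟨hP, hφ, hP', h⟩
    refine ⟨hP, ?_, ?_, ?_⟩
    · intro x
      have := hφ x x.2
      rw [tot_apply] at this
      exact this
    · intro x
      rw [hτ]
      exact hP' x x.2
    · intro x
      have e := h x x.2
      rw [tot_apply, tot_of_mem φ' (hP' x x.2)] at e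
      have hφx : φ x ∈ X := by
        have := hφ x x.2
        rw [tot_apply] at this
        exact this
      refine Eq.trans ?_ (e.trans (hτ ⟨φ x, hφx⟩).symm)
      congr 1
      apply Subtype.ext
      exact hτ ⟨x, hP x.2⟩

/-- an image system is a factor system modulo the trivial subgroup.  `preimageAlong τ P'` has carrier `s '' P'` for `P' ≤ X'`;
`InducedAlong τ φ φ'` says `φ' (t x) = t (φ x)`; use `corr_isMap_iff`. -/
theorem toFac {X : Subgroup Ω} {X' : Subgroup Ω'} {A : FusionSystem X} {A' : FusionSystem X'}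
    (h : Corr t s A A') (τ : X →* Ω') (hτ : ∀ x : X, τ x = t x) : A.IsFactorSystem ⊥ τ A' := by
  have hI := h.1
  refine ⟨bot_le, ?_, ?_, ?_⟩
  · intro x
    rw [Subgroup.mem_bot, hτ]
    constructor
    · intro hx
      rw [← isoOn_one hI] at hx
      exact isoOn_inj hI x.2 X.one_mem hx
    · intro hx
      rw [hx]
      exact isoOn_one hI
  · ext y
    constructor
    · rintro ⟨x, rfl⟩
      rw [hτ]
      exact hI.map x x.2
    · intro hy
      refine ⟨⟨s y, hI.inv y hy⟩, ?_⟩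
      rw [hτ]
      exact hI.ts y hy
  · intro P' φ'
    constructor
    · intro hφ'
      have hP' : P' ≤ X' := (A'.le_of_mem hφ').1
      have hm : IsMap A' P' (tot φ') := isMap_tot hφ'
      have himg := image_pre hI τ hτ hP'
      have hmemP' : ∀ x ∈ preimageAlong τ P', t x ∈ P' := by
        intro x hx
        have : t x ∈ t '' (preimageAlong τ P' : Set Ω) := ⟨x, hx, rfl⟩
        rw [himg] at this
        exact this
      have key := (corr_isMap_iff h (pre_le τ P') himg (f := fun x => s (tot φ' (t x)))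
        (f' := tot φ') (fun x hx => hI.inv _ (hm.mem (hmemP' x hx)))
        (fun x hx => (hI.ts _ (hm.mem (hmemP' x hx))).symm)).2 hm
      obtain ⟨φ, hφ, hφf⟩ := key
      refine ⟨hP', φ, hφ, (induced_iff τ hτ φ φ').2 ⟨pre_le τ P', ?_, hmemP', ?_⟩⟩
      · intro x hx
        rw [tot_of_mem φ hx, hφf ⟨x, hx⟩]
        exact hI.inv _ (hm.mem (hmemP' x hx))
      · intro x hx
        rw [tot_of_mem φ hx, hφf ⟨x, hx⟩]
        exact (hI.ts _ (hm.mem (hmemP' x hx))).symm
    · rintro ⟨hP', φ, hφ, hind⟩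
      obtain ⟨_, h2, h3, h4⟩ := (induced_iff τ hτ φ φ').1 hind
      have himg := image_pre hI τ hτ hP'
      have key := (corr_isMap_iff h (pre_le τ P') himg (f := tot φ) (f' := tot φ') h2 h4).1
        (isMap_tot hφ)
      exact key.hom_mem (fun x => (tot_apply φ' x).symm)

/-- conversely a factor system modulo the trivial subgroup is an image system.  `t x := if h : x ∈ X then γ ⟨x, h⟩ else 1`,
`s y := if h : ∃ x : X, γ x = y then (h.choose : Ω) else 1`; `γ` is injective (`hE.2.1`), `γ.range = X'` (`hE.2.2.1`). -/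
theorem ofFac {X : Subgroup Ω} {X' : Subgroup Ω'} {A : FusionSystem X} {A' : FusionSystem X'}
    (γ : X →* Ω') (hE : A.IsFactorSystem ⊥ γ A') :
    ∃ (t : Ω → Ω') (s : Ω' → Ω), (∀ x : X, t x = γ x) ∧ Corr t s A A' := by
  classical
  obtain ⟨_, hker, hrange, hHom⟩ := hE
  have hinj : Function.Injective γ := by
    rw [injective_iff_map_eq_one]
    intro x hx
    exact Subtype.ext (Subgroup.mem_bot.1 ((hker x).1 hx))
  let t : Ω → Ω' := fun x => if h : x ∈ X then γ ⟨x, h⟩ else 1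
  let s : Ω' → Ω := fun y => if h : ∃ x : X, γ x = y then (h.choose : Ω) else 1
  have ht : ∀ x : X, t x = γ x := by
    intro x
    show (if h : (x : Ω) ∈ X then γ ⟨x, h⟩ else 1) = γ x
    rw [dif_pos x.2]
  have hτ : ∀ x : X, γ x = t x := fun x => (ht x).symm
  have hs : ∀ x : X, s (γ x) = x := by
    intro x
    have hex : ∃ x' : X, γ x' = γ x := ⟨x, rfl⟩
    show (if h : ∃ x' : X, γ x' = γ x then (h.choose : Ω) else 1) = x
    rw [dif_pos hex]
    exact congrArg Subtype.val (hinj hex.choose_spec)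
  have hX' : ∀ y ∈ X', ∃ x : X, γ x = y := by
    intro y hy
    rw [← hrange] at hy
    exact hy
  have hI : IsoOn t s X X' := by
    refine ⟨?_, ?_, ?_, ?_, ?_⟩
    · intro x hx
      rw [ht ⟨x, hx⟩, ← hrange]
      exact ⟨_, rfl⟩
    · intro y hy
      obtain ⟨x, rfl⟩ := hX' y hy
      rw [hs]
      exact x.2
    · intro x hx
      rw [ht ⟨x, hx⟩, hs]
    · intro y hy
      obtain ⟨x, rfl⟩ := hX' y hy
      rw [hs, ht]
    · intro x hx y hy
      rw [ht ⟨x, hx⟩, ht ⟨y, hy⟩, ← map_mul]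
      exact ht (⟨x, hx⟩ * ⟨y, hy⟩)
  have hIs := isoOn_symm hI
  refine ⟨t, s, ht, hI, ?_, ?_⟩
  · intro P P' f hf hPP'
    have hP : P ≤ X := hf.le
    have hP' : P' ≤ X' := by
      intro y hy
      have : y ∈ (P' : Set Ω') := hy
      rw [← hPP'] at this
      obtain ⟨x, hx, rfl⟩ := this
      exact hI.map x (hP hx)
    have hsP : ∀ y ∈ P', s y ∈ P := by
      intro y hy
      have : y ∈ (P' : Set Ω') := hy
      rw [← hPP'] at this
      obtain ⟨x, hx, rfl⟩ := this
      rw [hI.st x (hP hx)]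
      exact hx
    let φ' : P' →* Ω' := MonoidHom.mk' (fun y => t (f (s y))) (by
      intro a b
      show t (f (s ((a : Ω') * (b : Ω')))) = t (f (s a)) * t (f (s b))
      rw [hIs.mul a (hP' a.2) b (hP' b.2), hf.map_mul (hsP a a.2) (hsP b b.2),
        hI.mul _ (hf.mem (hsP a a.2)) _ (hf.mem (hsP b b.2))])
    have hpre := pre_eq_of_image hI γ hτ hP hPP'
    have hf' : IsMap A (preimageAlong γ P') f := by rw [hpre]; exact hf
    obtain ⟨φ, hφ, hφf⟩ := hf'
    refine ⟨φ', (hHom P' φ').2 ⟨hP', φ, hφ, (induced_iff γ hτ φ φ').2 ⟨pre_le γ P', ?_, ?_, ?_⟩⟩,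
      fun y => rfl⟩
    · intro x hx
      rw [tot_of_mem φ hx]
      exact (A.le_of_mem hφ).2 _
    · intro x hx
      rw [hpre] at hx
      have : t x ∈ t '' (P : Set Ω) := ⟨x, hx, rfl⟩
      rw [hPP'] at this
      exact this
    · intro x hx
      have hx' : x ∈ P := by rw [hpre] at hx; exact hx
      have h1 : t x ∈ P' := by
        have : t x ∈ t '' (P : Set Ω) := ⟨x, hx', rfl⟩
        rw [hPP'] at this
        exact this
      rw [tot_of_mem φ hx, hφf ⟨x, hx⟩, tot_of_mem φ' h1]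
      show t (f (s (t x))) = t (f x)
      rw [hI.st x (hP hx')]
  · intro P' P f' hf' hPP'
    obtain ⟨φ', hφ', hφf'⟩ := hf'
    obtain ⟨hP', φ, hφ, hind⟩ := (hHom P' φ').1 hφ'
    obtain ⟨_, h2, h3, h4⟩ := (induced_iff γ hτ φ φ').1 hind
    have hP : P ≤ X := by
      intro x hx
      have : x ∈ (P : Set Ω) := hx
      rw [← hPP'] at this
      obtain ⟨y, hy, rfl⟩ := this
      exact hI.inv y (hP' hy)
    have himg : t '' (P : Set Ω) = (P' : Set Ω') := isoOn_image_symm hIs hP' hPP'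
    have hpre := pre_eq_of_image hI γ hτ hP himg
    have hm : IsMap A (preimageAlong γ P') (tot φ) := isMap_tot hφ
    have hm2 : IsMap A (preimageAlong γ P') (fun x => s (f' (t x))) := by
      apply hm.congr
      intro x hx
      have e := h4 x hx
      rw [tot_of_mem φ' (h3 x hx), hφf'] at e
      show tot φ x = s (f' (t x))
      rw [e, hI.st _ (h2 x hx)]
    rw [hpre] at hm2
    exact hm2

end Cfsg.Agent.Lib.H89TrToFac
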