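import Mathlib
import Cfsg.Agent.Lib.H89TrBasic

set_option autoImplicit false

namespace Cfsg.Agent.Lib.H89TrUniq

open Cfsg Cfsg.FusionSystem Cfsg.Agent.Lib.Helper87Fusion Cfsg.Agent.Lib.H89TrDefs
  Cfsg.Agent.Lib.H89TrBasic

variable {Ω Ω' : Type*} [Group Ω] [Group Ω'] {t : Ω → Ω'} {s : Ω' → Ω}

/-- a fusion system is determined by its `Hom` sets (structure eta + proof irrelevance: `cases A; cases B; congr; funext`). -/
theorem eq_of_hom {X : Subgroup Ω} (A B : FusionSystem X) (h : ∀ P : Subgroup Ω, A.Hom P = B.Hom P) :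
    A = B := by
  obtain ⟨HA, _, _, _, _, _⟩ := A
  obtain ⟨HB, _, _, _, _, _⟩ := B
  have h1 : HA = HB := funext h
  subst h1
  rfl

/-- `X' = t '' X = X''` (`isoOn_image`, `SetLike.coe_injective`).  `φ ∈ A'.Hom P'` → `IsMap A' P' (tot φ)` → pull back to `A`
(`Push s t`, source `P` with `s '' P' = P`: `P' ≤ X'` by `IsMap.le`, `isoOn_exists_image` for `isoOn_symm`) → push to `A''`
→ `IsMap.congr` → `IsMap.hom_mem`/`mem_hom_iff`. -/
theorem unique {X : Subgroup Ω} {X' X'' : Subgroup Ω'} {A : FusionSystem X} {A' : FusionSystem X'}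
    {A'' : FusionSystem X''} (h' : Corr t s A A') (h'' : Corr t s A A'') :
    X' = X'' ∧ ∀ P : Subgroup Ω', A'.Hom P = A''.Hom P := by
  have hX : X' = X'' :=
    SetLike.coe_injective ((isoOn_image h'.1).symm.trans (isoOn_image h''.1))
  refine ⟨hX, ?_⟩
  have key : ∀ {X₁ X₂ : Subgroup Ω'} {A₁ : FusionSystem X₁} {A₂ : FusionSystem X₂},
      Corr t s A A₁ → Corr t s A A₂ → ∀ P : Subgroup Ω', A₁.Hom P ⊆ A₂.Hom P := by
    intro X₁ X₂ A₁ A₂ h₁ h₂ P' φ hφ
    have h1 : IsMap A₁ P' (tot φ) := isMap_tot hφ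
    have hP' : P' ≤ X₁ := h1.le
    obtain ⟨P, hPX, hP⟩ := isoOn_exists_image (isoOn_symm h₁.1) hP'
    have h2 : IsMap A P (fun x => s (tot φ (t x))) := h₁.2.2 P' P _ h1 hP
    have hP2 : t '' (P : Set Ω) = (P' : Set Ω') := isoOn_image_symm (isoOn_symm h₁.1) hP' hP
    have h3 := h₂.2.1 P P' _ h2 hP2
    refine (h3.congr ?_).hom_mem (fun x => (tot_apply φ x).symm)
    intro y hy
    show t (s (tot φ (t (s y)))) = tot φ y
    rw [h₁.1.ts y (hP' hy), h₁.1.ts _ (h1.mem hy)]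
  intro P
  exact Set.Subset.antisymm (key h' h'' P) (key h'' h' P)

/-- `subst`, `eq_of_hom`, `IsSubnormalIn.refl`. -/
theorem sn_of_homEq {X Y : Subgroup Ω} {A : FusionSystem X} {B : FusionSystem Y} (p : ℕ) (h : X = Y)
    (hh : ∀ P : Subgroup Ω, A.Hom P = B.Hom P) : A.IsSubnormalIn B p := by
  subst h
  rw [eq_of_hom A B hh]
  exact IsSubnormalIn.refl B p

/-- `subst`, `eq_of_hom`. -/
theorem sn_congr {X X₂ Y : Subgroup Ω} {A : FusionSystem X} {A₂ : FusionSystem X₂} {B : FusionSystem Y}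
    {p : ℕ} (h : X = X₂) (hh : ∀ P : Subgroup Ω, A.Hom P = A₂.Hom P) (hs : A.IsSubnormalIn B p) :
    A₂.IsSubnormalIn B p := by
  subst h
  rw [← eq_of_hom A A₂ hh]
  exact hs

/-- induction on `IsSubnormalIn`; `IsNormalIn` gives `StronglyClosed`, whose first component is `≤`. -/
theorem sn_le {X Y : Subgroup Ω} {A : FusionSystem X} {B : FusionSystem Y} {p : ℕ}
    (hs : A.IsSubnormalIn B p) : X ≤ Y := by
  induction hs with
  | refl F p => exact le_rfl
  | step h1 h2 ih => exact ih.trans h2.1.2.2.2.1.1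

end Cfsg.Agent.Lib.H89TrUniq
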