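import Mathlib
import Cfsg.Agent.Lib.Helper18F4

set_option autoImplicit false

/-! Row S3157 (project 3157): vocabulary.  Plan: notes/helper90/hs/README.md. -/

namespace Cfsg.Agent.Lib.H90HsDefs

open Cfsg.Agent.Lib.Helper18F4

/-- the Heisenberg group: `⟨a, b, c⟩` is the matrix `!![1, b, c; 0, 1, a; 0, 0, 1]` -/
@[ext] structure Heis (F : Type*) where
  a : F
  b : F
  c : F

namespace Heis

variable {F : Type*} [CommRing F]

instance : Mul (Heis F) := ⟨fun p q => ⟨p.a + q.a, p.b + q.b, p.c + q.c + q.a * p.b⟩⟩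
instance : One (Heis F) := ⟨⟨0, 0, 0⟩⟩
instance : Inv (Heis F) := ⟨fun p => ⟨-p.a, -p.b, -p.c + p.a * p.b⟩⟩

@[simp] theorem mul_a (p q : Heis F) : (p * q).a = p.a + q.a := rfl
@[simp] theorem mul_b (p q : Heis F) : (p * q).b = p.b + q.b := rfl
@[simp] theorem mul_c (p q : Heis F) : (p * q).c = p.c + q.c + q.a * p.b := rfl
@[simp] theorem one_a : (1 : Heis F).a = 0 := rfl
@[simp] theorem one_b : (1 : Heis F).b = 0 := rfl
@[simp] theorem one_c : (1 : Heis F).c = 0 := rfl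
@[simp] theorem inv_a (p : Heis F) : (p⁻¹).a = -p.a := rfl
@[simp] theorem inv_b (p : Heis F) : (p⁻¹).b = -p.b := rfl
@[simp] theorem inv_c (p : Heis F) : (p⁻¹).c = -p.c + p.a * p.b := rfl

instance : Group (Heis F) :=
  Group.ofLeftAxioms
    (fun p q r => by ext <;> simp <;> ring)
    (fun p => by ext <;> simp)
    (fun p => by ext <;> simp <;> ring)

end Heis

variable {T : Type*} [Group T]

/-- hypotheses on `ρ` -/
structure CR (ρ : MulAut T) : Prop where
  card : Nat.card T = 64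
  na : ∃ s t : T, s * t ≠ t * s
  rho3 : ∀ t, ρ (ρ (ρ t)) = t
  fp : ∀ t, ρ t = t → t = 1

/-- hypotheses on `ρ` and `x` -/
structure CX (ρ x : MulAut T) : Prop extends CR ρ where
  x2 : ∀ t, x (x t) = t
  xr : ∀ t, x (ρ t) = ρ (ρ (x t))

/-- the "line" through `a`: the subgroup generated by `a`, `ρ a` and the centre -/
def M (ρ : MulAut T) (a : T) : Subgroup T := Subgroup.closure {a, ρ a} ⊔ Subgroup.center T

/-- the fixed points of `x` -/
def Fx (x : MulAut T) : Subgroup T where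
  carrier := {t | x t = t}
  mul_mem' := fun {s t} hs ht => by
    show x (s * t) = s * t
    rw [map_mul, show x s = s from hs, show x t = t from ht]
  one_mem' := map_one x
  inv_mem' := fun {s} hs => by
    show x s⁻¹ = s⁻¹
    rw [map_inv, show x s = s from hs]

theorem mem_Fx {x : MulAut T} {t : T} : t ∈ Fx x ↔ x t = t := Iff.rfl

/-- `0 ↦ 1, 1 ↦ a, ω ↦ b, ω² ↦ c` -/
def co3 (a b c : T) : F4c → T
  | ⟨false, false⟩ => 1
  | ⟨true, false⟩ => a
  | ⟨false, true⟩ => b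
  | ⟨true, true⟩ => c

/-- coordinates on a line: `1 ↦ a, ω ↦ ρ a, ω² ↦ ρ² a` -/
def al (ρ : MulAut T) (a : T) : F4c → T := co3 a (ρ a) (ρ (ρ a))

/-- coordinates on the centre: `1 ↦ z, ω ↦ ρ² z, ω² ↦ ρ z` -/
def ze (ρ : MulAut T) (z : T) : F4c → T := co3 z (ρ (ρ z)) (ρ z)

end Cfsg.Agent.Lib.H90HsDefs
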