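import Mathlib
import Cfsg.Agent.Lib.H90HsDefs

set_option autoImplicit false
set_option linter.unusedSectionVars false

/-! Project 3157 (row S3157, 3u), piece Ch.  Plan and conventions: notes/helper90/hs/README.md.
`CR ρ`: |T| = 64, T non-abelian, ρ³ = 1, ρ fixed-point-free.  `CX ρ x`: moreover x² = 1, x ρ = ρ² x.  `M ρ a = closure {a, ρ a} ⊔ centre`.
Lemmas of the imported pieces H90Hs* may be used (their stubs are in notes/helper90/hs/).

SKETCH. Heis F4c ≃ F4c × F4c × F4c, F4c.card.
-/

namespace Cfsg.Agent.Lib.H90HsCh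

open Cfsg.Agent.Lib.H90HsDefs Cfsg.Agent.Lib.Helper18F4
open scoped commutatorElement

variable {T : Type*} [Group T] {ρ x : MulAut T}

theorem card_heis : Nat.card (Heis F4c) = 64 := by
  let e : Heis F4c ≃ F4c × F4c × F4c :=
    { toFun := fun p => (p.a, p.b, p.c)
      invFun := fun t => ⟨t.1, t.2.1, t.2.2⟩
      left_inv := fun p => rfl
      right_inv := fun t => rfl }
  rw [Nat.card_congr e, Nat.card_prod, Nat.card_prod, Nat.card_eq_fintype_card, F4c.card]

end Cfsg.Agent.Lib.H90HsCh
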