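import Mathlib
import Cfsg.Agent.Lib.H90HsDefs

set_option autoImplicit false
set_option linter.unusedSectionVars false

/-! Project 3157 (row S3157, 3u), piece Inv.  Plan and conventions: notes/helper90/hs/README.md.
`CR ρ`: |T| = 64, T non-abelian, ρ³ = 1, ρ fixed-point-free.  `CX ρ x`: moreover x² = 1, x ρ = ρ² x.  `M ρ a = closure {a, ρ a} ⊔ centre`.
Lemmas of the imported pieces H90Hs* may be used (their stubs are in notes/helper90/hs/).

SKETCH. card H ∣ 64 = 2^6 (Subgroup.card_subgroup_dvd_card, (Nat.dvd_prime_pow Nat.prime_two).1) so card H = 2^k, k ≤ 6.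
card H ≡ 1 mod 3: the restriction σ of ρ to H satisfies σ^3 = 1 and has the single fixed point 1:
Equiv.Perm.card_fixedPoints_modEq (p = 3, n = 1) (or MulAction.card_modEq_card_fixedPoints).  Then interval_cases k.
-/

namespace Cfsg.Agent.Lib.H90HsInv

open Cfsg.Agent.Lib.H90HsDefs Cfsg.Agent.Lib.Helper18F4
open scoped commutatorElement

variable {T : Type*} [Group T] {ρ x : MulAut T}

theorem card_inv (h : CR ρ) (H : Subgroup T) (hH : ∀ t ∈ H, ρ t ∈ H) :
    Nat.card H = 1 ∨ Nat.card H = 4 ∨ Nat.card H = 16 ∨ Nat.card H = 64 := by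
  classical
  have hfin : Finite T := Nat.finite_of_card_ne_zero (by rw [h.card]; norm_num)
  have := Fintype.ofFinite H
  have hdvd : Nat.card H ∣ 2 ^ 6 := by
    have h1 := Subgroup.card_subgroup_dvd_card H
    rw [h.card] at h1
    exact h1
  obtain ⟨k, hk, hk2⟩ := (Nat.dvd_prime_pow Nat.prime_two).1 hdvd
  let f : Function.End H := fun t => ⟨ρ t.1, hH t.1 t.2⟩
  have hf : f ^ 3 ^ 1 = 1 := by
    funext t
    apply Subtype.ext
    show ρ (ρ (ρ t.1)) = t.1
    exact h.rho3 t.1
  have : Fact (Nat.Prime 3) := ⟨Nat.prime_three⟩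
  have hmod := Equiv.Perm.card_fixedPoints_modEq (f := f) (p := 3) (n := 1) hf
  have hfix : Fintype.card (Function.fixedPoints f) = 1 := by
    rw [Fintype.card_eq_one_iff]
    refine ⟨⟨1, ?_⟩, ?_⟩
    · show f 1 = 1
      apply Subtype.ext
      show ρ 1 = 1
      exact map_one ρ
    · rintro ⟨t, ht⟩
      apply Subtype.ext
      apply Subtype.ext
      have h1 : f t = t := ht
      have h2 : ρ t.1 = t.1 := congrArg Subtype.val h1
      exact h.fp t.1 h2
  rw [hfix, ← Nat.card_eq_fintype_card, hk2] at hmod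
  rw [hk2]
  unfold Nat.ModEq at hmod
  interval_cases k <;> simp_all

end Cfsg.Agent.Lib.H90HsInv
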