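import Mathlib
import Cfsg.Agent.Lib.H90HsDefs

set_option autoImplicit false
set_option linter.unusedSectionVars false

/-! Project 3157 (row S3157, 3u), piece P3.  Plan and conventions: notes/helper90/hs/README.md.
`CR ρ`: |T| = 64, T non-abelian, ρ³ = 1, ρ fixed-point-free.  `CX ρ x`: moreover x² = 1, x ρ = ρ² x.  `M ρ a = closure {a, ρ a} ⊔ centre`.
Lemmas of the imported pieces H90Hs* may be used (their stubs are in notes/helper90/hs/).

SKETCH. T is finite (Nat.finite_of_card_ne_zero).  f t := t⁻¹ * ρ t is injective (s⁻¹ρs = t⁻¹ρt ⇒ ρ(s t⁻¹) = s t⁻¹ ⇒ s = t by h.fp), hence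
surjective (Finite.injective_iff_surjective).  Write t = s⁻¹ * ρ s: the product telescopes to s⁻¹ * ρ(ρ(ρ s)) = 1 (h.rho3).
`comm_rho`: prod3 for t⁻¹ and inverting gives ρ(ρ t) * ρ t * t = 1, so ρ(ρ t) = (ρ t * t)⁻¹ = (t * ρ t)⁻¹.
-/

namespace Cfsg.Agent.Lib.H90HsP3

open Cfsg.Agent.Lib.H90HsDefs Cfsg.Agent.Lib.Helper18F4
open scoped commutatorElement

variable {T : Type*} [Group T] {ρ x : MulAut T}

theorem prod3 (h : CR ρ) (t : T) : t * ρ t * ρ (ρ t) = 1 := by
  have hfin : Finite T := Nat.finite_of_card_ne_zero (by rw [h.card]; norm_num)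
  have hinj : Function.Injective (fun s : T => s⁻¹ * ρ s) := by
    intro s u hsu
    have h0 : s⁻¹ * ρ s = u⁻¹ * ρ u := hsu
    have h1 : ρ (s * u⁻¹) = s * u⁻¹ := by
      rw [map_mul, map_inv]
      have h2 : ρ s = s * (u⁻¹ * ρ u) := by rw [← h0]; group
      rw [h2]; group
    have h3 := h.fp _ h1
    exact mul_inv_eq_one.1 h3
  obtain ⟨s, hs⟩ := (Finite.injective_iff_surjective.1 hinj) t
  have hs' : t = s⁻¹ * ρ s := hs.symm
  rw [hs']
  simp only [map_mul, map_inv, h.rho3]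
  group

theorem rho2_eq (h : CR ρ) (t : T) : ρ (ρ t) = (t * ρ t)⁻¹ := by
  have := prod3 h t
  exact eq_inv_of_mul_eq_one_right this

theorem comm_rho (h : CR ρ) (t : T) : t * ρ t = ρ t * t := by
  have h1 := prod3 h t⁻¹
  simp only [map_inv] at h1
  have h2 : ρ (ρ t) = (ρ t * t)⁻¹ := by
    have h3 : (ρ (ρ t) * ρ t * t)⁻¹ = 1 := by
      rw [← h1]; group
    have h4 : ρ (ρ t) * (ρ t * t) = 1 := by
      rw [← mul_assoc]; exact inv_eq_one.1 h3
    exact eq_inv_of_mul_eq_one_left h4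
  have h5 := rho2_eq h t
  rw [h2] at h5
  exact (inv_injective h5).symm

end Cfsg.Agent.Lib.H90HsP3
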