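import Mathlib
import Cfsg.Agent.Lib.H90HsDefs
import Cfsg.Agent.Lib.H90HsP3

set_option autoImplicit false
set_option linter.unusedSectionVars false

/-! Project 3157 (row S3157, 3u), piece Mf.  Plan and conventions: notes/helper90/hs/README.md.
`CR ρ`: |T| = 64, T non-abelian, ρ³ = 1, ρ fixed-point-free.  `CX ρ x`: moreover x² = 1, x ρ = ρ² x.  `M ρ a = closure {a, ρ a} ⊔ centre`.
Lemmas of the imported pieces H90Hs* may be used (their stubs are in notes/helper90/hs/).

SKETCH. M ρ a = closure {a, ρ a} ⊔ center.  `M_inv`: sup/closure induction (or map_sup, MonoidHom.map_closure): ρ a ∈ M, ρ (ρ a) = (a * ρ a)⁻¹ ∈ M (rho2_eq),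
ρ maps the centre into itself.  `M_inv'`: t = ρ (ρ (ρ t)).  `M_comm`: the generators commute (comm_rho; centre): e.g. M ≤ centralizer of M by two closure inductions
(Subgroup.closure_le_centralizer_centralizer / Subgroup.isMulCommutative_closure may help).
-/

namespace Cfsg.Agent.Lib.H90HsMf

open Cfsg.Agent.Lib.H90HsDefs Cfsg.Agent.Lib.Helper18F4
open scoped commutatorElement
open Cfsg.Agent.Lib.H90HsP3

variable {T : Type*} [Group T] {ρ x : MulAut T}

theorem center_le_M (a : T) : Subgroup.center T ≤ M ρ a := le_sup_right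

theorem mem_M (a : T) : a ∈ M ρ a :=
  (le_sup_left : Subgroup.closure {a, ρ a} ≤ M ρ a) (Subgroup.subset_closure (by simp))

theorem rho_mem_M (a : T) : ρ a ∈ M ρ a :=
  (le_sup_left : Subgroup.closure {a, ρ a} ≤ M ρ a) (Subgroup.subset_closure (by simp))

theorem center_inv (z : T) (hz : z ∈ Subgroup.center T) : ρ z ∈ Subgroup.center T := by
  rw [Subgroup.mem_center_iff] at hz ⊢
  intro g
  obtain ⟨g', rfl⟩ := ρ.surjective g
  rw [← map_mul, ← map_mul, hz]

theorem M_le {H : Subgroup T} (hZ : Subgroup.center T ≤ H) (hH : ∀ t ∈ H, ρ t ∈ H) {a : T} (ha : a ∈ H) :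
    M ρ a ≤ H := by
  apply sup_le _ hZ
  rw [Subgroup.closure_le]
  intro y hy
  rcases hy with rfl | hy
  · exact ha
  · rw [Set.mem_singleton_iff] at hy
    rw [hy]; exact hH _ ha

theorem M_inv (h : CR ρ) (a : T) : ∀ t ∈ M ρ a, ρ t ∈ M ρ a := by
  have h1 : M ρ a ≤ (M ρ a).comap ρ.toMonoidHom := by
    apply sup_le
    · rw [Subgroup.closure_le]
      intro y hy
      rcases hy with rfl | hy
      · exact rho_mem_M y
      · rw [Set.mem_singleton_iff] at hy
        rw [hy]
        show ρ (ρ a) ∈ M ρ a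
        rw [rho2_eq h]
        exact (M ρ a).inv_mem ((M ρ a).mul_mem (mem_M a) (rho_mem_M a))
    · intro z hz
      exact center_le_M a (center_inv z hz)
  intro t ht
  exact h1 ht

theorem M_inv' (h : CR ρ) (a t : T) (ht : ρ t ∈ M ρ a) : t ∈ M ρ a := by
  rw [← h.rho3 t]
  exact M_inv h a _ (M_inv h a _ ht)

theorem M_comm (h : CR ρ) (a : T) : ∀ s ∈ M ρ a, ∀ t ∈ M ρ a, s * t = t * s := by
  -- first: everything in `M` commutes with `a` and `ρ a`
  have h1 : ∀ g : T, g * a = a * g → g * ρ a = ρ a * g → M ρ a ≤ Subgroup.centralizer {g} := by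
    intro g hg1 hg2
    apply sup_le
    · rw [Subgroup.closure_le]
      intro y hy
      rcases hy with rfl | hy
      · intro k hk
        rw [Set.mem_singleton_iff] at hk
        rw [hk]; exact hg1
      · rw [Set.mem_singleton_iff] at hy
        intro k hk
        rw [Set.mem_singleton_iff] at hk
        rw [hk, hy]; exact hg2
    · intro z hz k _
      exact (Subgroup.mem_center_iff.1 hz k)
  have ha : M ρ a ≤ Subgroup.centralizer {a} := h1 a rfl (comm_rho h a)
  have hb : M ρ a ≤ Subgroup.centralizer {ρ a} := h1 (ρ a) (comm_rho h a).symm rfl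
  intro s hs t ht
  have hs1 : a * s = s * a := ha hs a rfl
  have hs2 : ρ a * s = s * ρ a := hb hs (ρ a) rfl
  have := h1 s hs1.symm hs2.symm ht s rfl
  exact this

end Cfsg.Agent.Lib.H90HsMf
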