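import Mathlib
import Cfsg.Agent.Lib.H90HsDefs
import Cfsg.Agent.Lib.H90HsInv
import Cfsg.Agent.Lib.H90HsMf

set_option autoImplicit false
set_option linter.unusedSectionVars false

/-! Project 3157 (row S3157, 3u), piece Cz.  Plan and conventions: notes/helper90/hs/README.md.
`CR ρ`: |T| = 64, T non-abelian, ρ³ = 1, ρ fixed-point-free.  `CX ρ x`: moreover x² = 1, x ρ = ρ² x.  `M ρ a = closure {a, ρ a} ⊔ centre`.
Lemmas of the imported pieces H90Hs* may be used (their stubs are in notes/helper90/hs/).

SKETCH. card_inv for the centre (center_inv).  Not 1: IsPGroup.center_nontrivial (IsPGroup.of_card, 64 = 2^6).  Not 64: centre = ⊤ contradicts h.na.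
Not 16: pick a ∉ centre (h.na); M ρ a is invariant (M_inv), contains the centre properly, so has card > 16, so 64 (card_inv), so M ρ a = ⊤ (Subgroup.eq_top_of_card_eq),
which is commutative (M_comm): contradiction with h.na.
-/

namespace Cfsg.Agent.Lib.H90HsCz

open Cfsg.Agent.Lib.H90HsDefs Cfsg.Agent.Lib.Helper18F4
open scoped commutatorElement
open Cfsg.Agent.Lib.H90HsInv Cfsg.Agent.Lib.H90HsMf

variable {T : Type*} [Group T] {ρ x : MulAut T}

theorem exists_not_mem_center (h : CR ρ) : ∃ a : T, a ∉ Subgroup.center T := by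
  obtain ⟨s, t, hst⟩ := h.na
  refine ⟨s, fun hs => hst ?_⟩
  exact (Subgroup.mem_center_iff.1 hs t).symm

theorem card_center (h : CR ρ) : Nat.card (Subgroup.center T) = 4 := by
  have hfin : Finite T := Nat.finite_of_card_ne_zero (by rw [h.card]; norm_num)
  have : Fact (Nat.Prime 2) := ⟨Nat.prime_two⟩
  have hp : IsPGroup 2 T := IsPGroup.of_card (n := 6) (by rw [h.card]; norm_num)
  have hnt : Nontrivial T := by
    obtain ⟨s, t, hst⟩ := h.na
    exact ⟨⟨s * t, t * s, hst⟩⟩
  obtain ⟨a, ha⟩ := exists_not_mem_center h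
  rcases card_inv h (Subgroup.center T) (fun z hz => center_inv z hz) with h1 | h1 | h1 | h1
  · exfalso
    have h2 := hp.center_nontrivial
    have h3 : 1 < Nat.card (Subgroup.center T) := Finite.one_lt_card
    omega
  · exact h1
  · exfalso
    have hdvd : Nat.card (Subgroup.center T) ∣ Nat.card (M ρ a) :=
      Subgroup.card_dvd_of_le (center_le_M a)
    rw [h1] at hdvd
    rcases card_inv h (M ρ a) (M_inv h a) with h2 | h2 | h2 | h2
    · rw [h2] at hdvd; omega
    · rw [h2] at hdvd; omega
    · have h3 : Subgroup.center T = M ρ a :=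
        Subgroup.eq_of_le_of_card_ge (center_le_M a) (by rw [h1, h2])
      exact ha (by rw [h3]; exact mem_M a)
    · have h3 : M ρ a = ⊤ := Subgroup.eq_top_of_card_eq _ (by rw [h2, h.card])
      obtain ⟨s, t, hst⟩ := h.na
      exact hst (M_comm h a s (by rw [h3]; trivial) t (by rw [h3]; trivial))
  · exfalso
    have h2 : Subgroup.center T = ⊤ := Subgroup.eq_top_of_card_eq _ (by rw [h1, h.card])
    exact ha (by rw [h2]; trivial)

end Cfsg.Agent.Lib.H90HsCz
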