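import Mathlib
import Cfsg.Agent.Lib.H90HsDefs
import Cfsg.Agent.Lib.H90HsInv
import Cfsg.Agent.Lib.H90HsMf
import Cfsg.Agent.Lib.H90HsCz

set_option autoImplicit false
set_option linter.unusedSectionVars false

/-! Project 3157 (row S3157, 3u), piece Cm.  Plan and conventions: notes/helper90/hs/README.md.
`CR ρ`: |T| = 64, T non-abelian, ρ³ = 1, ρ fixed-point-free.  `CX ρ x`: moreover x² = 1, x ρ = ρ² x.  `M ρ a = closure {a, ρ a} ⊔ centre`.
Lemmas of the imported pieces H90Hs* may be used (their stubs are in notes/helper90/hs/).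

SKETCH. `card_M`: card_inv + M_inv; card > 4 since centre < M ρ a (a ∈ M, a ∉ centre; Subgroup.card_lt_card / eq_of_le_of_card_ge); not 64 since M_comm contradicts h.na.
`M_eq`: M ρ s ≤ M ρ a by M_le (center_le_M, M_inv), both of card 16 (Subgroup.eq_of_le_of_card_ge).
`exists_not_mem_M`: 16 < 64.
-/

namespace Cfsg.Agent.Lib.H90HsCm

open Cfsg.Agent.Lib.H90HsDefs Cfsg.Agent.Lib.Helper18F4
open scoped commutatorElement
open Cfsg.Agent.Lib.H90HsInv Cfsg.Agent.Lib.H90HsMf Cfsg.Agent.Lib.H90HsCz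

variable {T : Type*} [Group T] {ρ x : MulAut T}

theorem M_ne_top (h : CR ρ) (a : T) : M ρ a ≠ ⊤ := by
  intro htop
  obtain ⟨s, t, hst⟩ := h.na
  exact hst (M_comm h a s (by rw [htop]; trivial) t (by rw [htop]; trivial))

theorem card_M (h : CR ρ) {a : T} (ha : a ∉ Subgroup.center T) : Nat.card (M ρ a) = 16 := by
  have hfin : Finite T := Nat.finite_of_card_ne_zero (by rw [h.card]; norm_num)
  have h4 := card_center h
  have hlt : Subgroup.center T < M ρ a :=
    lt_of_le_of_ne (center_le_M a) (fun he => ha (by rw [he]; exact mem_M a))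
  have h5 : Nat.card (Subgroup.center T) < Nat.card (M ρ a) := by
    by_contra hge
    push Not at hge
    exact hlt.ne (Subgroup.eq_of_le_of_card_ge hlt.le hge)
  rcases card_inv h (M ρ a) (M_inv h a) with h1 | h1 | h1 | h1
  · omega
  · omega
  · exact h1
  · exfalso
    exact M_ne_top h a (Subgroup.eq_top_of_card_eq _ (by rw [h1, h.card]))

theorem M_eq (h : CR ρ) {a s : T} (ha : a ∉ Subgroup.center T) (hs : s ∈ M ρ a)
    (hs' : s ∉ Subgroup.center T) : M ρ s = M ρ a := by
  have hfin : Finite T := Nat.finite_of_card_ne_zero (by rw [h.card]; norm_num)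
  apply Subgroup.eq_of_le_of_card_ge (M_le (center_le_M a) (M_inv h a) hs)
  rw [card_M h ha, card_M h hs']

theorem exists_not_mem_M (h : CR ρ) (a : T) : ∃ b : T, b ∉ M ρ a := by
  by_contra hcon
  push Not at hcon
  exact M_ne_top h a (Subgroup.eq_top_iff' _ |>.2 hcon)

end Cfsg.Agent.Lib.H90HsCm
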