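import Mathlib
import Cfsg.Agent.Lib.H90HsDefs
import Cfsg.Agent.Lib.H90HsInv
import Cfsg.Agent.Lib.H90HsMf
import Cfsg.Agent.Lib.H90HsCz
import Cfsg.Agent.Lib.H90HsCm

set_option autoImplicit false
set_option linter.unusedSectionVars false

/-! Project 3157 (row S3157, 3u), piece Mi.  Plan and conventions: notes/helper90/hs/README.md.
`CR ρ`: |T| = 64, T non-abelian, ρ³ = 1, ρ fixed-point-free.  `CX ρ x`: moreover x² = 1, x ρ = ρ² x.  `M ρ a = closure {a, ρ a} ⊔ centre`.
Lemmas of the imported pieces H90Hs* may be used (their stubs are in notes/helper90/hs/).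

SKETCH. I := M ρ a ⊓ M ρ b contains the centre and is invariant, so card I ∈ {4, 16} (card_inv, card I ≤ card (M ρ a) = 16, ≥ 4).  If 16: I = M ρ a and I = M ρ b
(b ∉ centre as centre ≤ M ρ a; card_M), so b ∈ M ρ b = M ρ a: contradiction.  So card I = 4 = card centre, I = centre.
-/

namespace Cfsg.Agent.Lib.H90HsMi

open Cfsg.Agent.Lib.H90HsDefs Cfsg.Agent.Lib.Helper18F4
open scoped commutatorElement
open Cfsg.Agent.Lib.H90HsInv Cfsg.Agent.Lib.H90HsMf Cfsg.Agent.Lib.H90HsCz Cfsg.Agent.Lib.H90HsCm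

variable {T : Type*} [Group T] {ρ x : MulAut T}

theorem M_inf (h : CR ρ) {a b : T} (ha : a ∉ Subgroup.center T) (hb : b ∉ M ρ a) :
    M ρ a ⊓ M ρ b = Subgroup.center T := by
  have hfin : Finite T := Nat.finite_of_card_ne_zero (by rw [h.card]; norm_num)
  have hbZ : b ∉ Subgroup.center T := fun hz => hb (center_le_M a hz)
  have hZ : Subgroup.center T ≤ M ρ a ⊓ M ρ b := le_inf (center_le_M a) (center_le_M b)
  have hinv : ∀ t ∈ M ρ a ⊓ M ρ b, ρ t ∈ M ρ a ⊓ M ρ b :=
    fun t ht => ⟨M_inv h a t ht.1, M_inv h b t ht.2⟩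
  have h16 : Nat.card ↥(M ρ a ⊓ M ρ b) ≤ 16 := by
    rw [← card_M h ha]
    exact Subgroup.card_le_of_le inf_le_left
  symm
  apply Subgroup.eq_of_le_of_card_ge hZ
  rw [card_center h]
  rcases card_inv h _ hinv with h1 | h1 | h1 | h1
  · omega
  · omega
  · exfalso
    have e1 : M ρ a ⊓ M ρ b = M ρ a :=
      Subgroup.eq_of_le_of_card_ge inf_le_left (by rw [h1, card_M h ha])
    have e2 : M ρ a ⊓ M ρ b = M ρ b :=
      Subgroup.eq_of_le_of_card_ge inf_le_right (by rw [h1, card_M h hbZ])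
    apply hb
    rw [← e1, e2]
    exact mem_M b
  · omega

end Cfsg.Agent.Lib.H90HsMi
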