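import Mathlib
import Cfsg.Agent.Lib.H90HsDefs
import Cfsg.Agent.Lib.H90HsInv
import Cfsg.Agent.Lib.H90HsMf
import Cfsg.Agent.Lib.H90HsCz
import Cfsg.Agent.Lib.H90HsCm

set_option autoImplicit false
set_option linter.unusedSectionVars false

/-! Project 3157 (row S3157, 3u), piece Mn.  Plan and conventions: notes/helper90/hs/README.md.
`CR ρ`: |T| = 64, T non-abelian, ρ³ = 1, ρ fixed-point-free.  `CX ρ x`: moreover x² = 1, x ρ = ρ² x.  `M ρ a = closure {a, ρ a} ⊔ centre`.
Lemmas of the imported pieces H90Hs* may be used (their stubs are in notes/helper90/hs/).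

SKETCH. N := (M ρ a).normalizer is ρ-invariant (n ∈ N, m ∈ M: ρ n * m * (ρ n)⁻¹ = ρ (n * m' * n⁻¹) with m = ρ m', m' = ρ (ρ m) ∈ M; Subgroup.mem_normalizer_iff).
M < N by the normalizer condition (T is a 2-group so nilpotent: IsPGroup.isNilpotent, Group.normalizerCondition_of_isNilpotent; M ≠ ⊤ as card 16).
So card N > 16, card N = 64 (card_inv), N = ⊤, Subgroup.normalizer_eq_top_iff.
-/

namespace Cfsg.Agent.Lib.H90HsMn

open Cfsg.Agent.Lib.H90HsDefs Cfsg.Agent.Lib.Helper18F4
open scoped commutatorElement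
open Cfsg.Agent.Lib.H90HsInv Cfsg.Agent.Lib.H90HsMf Cfsg.Agent.Lib.H90HsCz Cfsg.Agent.Lib.H90HsCm

variable {T : Type*} [Group T] {ρ x : MulAut T}

theorem M_normal (h : CR ρ) {a : T} (ha : a ∉ Subgroup.center T) : (M ρ a).Normal := by
  have hfin : Finite T := Nat.finite_of_card_ne_zero (by rw [h.card]; norm_num)
  have hp : IsPGroup 2 T := IsPGroup.of_card (n := 6) (by rw [h.card]; norm_num)
  have hnil : Group.IsNilpotent T := hp.isNilpotent
  have hNC : NormalizerCondition T := Group.normalizerCondition_of_isNilpotent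
  have hlt : M ρ a < Subgroup.normalizer (M ρ a : Set T) :=
    hNC (M ρ a) (lt_top_iff_ne_top.2 (M_ne_top h a))
  have hinv : ∀ n ∈ Subgroup.normalizer (M ρ a : Set T), ρ n ∈ Subgroup.normalizer (M ρ a : Set T) := by
    intro n hn
    rw [Subgroup.mem_normalizer_iff] at hn ⊢
    intro m
    have e : ρ n * m * (ρ n)⁻¹ = ρ (n * ρ (ρ m) * n⁻¹) := by
      rw [map_mul, map_mul, map_inv, h.rho3]
    rw [e]
    constructor
    · intro hm
      exact M_inv h a _ ((hn _).1 (M_inv h a _ (M_inv h a _ hm)))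
    · intro hm
      have h1 := (hn _).2 (M_inv' h a _ hm)
      exact M_inv' h a _ (M_inv' h a _ h1)
  rw [← Subgroup.normalizer_eq_top_iff]
  have h5 : Nat.card (M ρ a) < Nat.card (Subgroup.normalizer (M ρ a : Set T)) := by
    by_contra hge
    push Not at hge
    exact hlt.ne (Subgroup.eq_of_le_of_card_ge hlt.le hge)
  rw [card_M h ha] at h5
  rcases card_inv h _ hinv with h1 | h1 | h1 | h1
  · omega
  · omega
  · omega
  · exact Subgroup.eq_top_of_card_eq _ (by rw [h1, h.card])

end Cfsg.Agent.Lib.H90HsMn
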