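import Mathlib
import Cfsg.Agent.Lib.H90HsDefs
import Cfsg.Agent.Lib.H90HsInv
import Cfsg.Agent.Lib.H90HsMf
import Cfsg.Agent.Lib.H90HsCz
import Cfsg.Agent.Lib.H90HsCm
import Cfsg.Agent.Lib.H90HsMi
import Cfsg.Agent.Lib.H90HsMn

set_option autoImplicit false
set_option linter.unusedSectionVars false

/-! Project 3157 (row S3157, 3u), piece Cl.  Plan and conventions: notes/helper90/hs/README.md.
`CR ρ`: |T| = 64, T non-abelian, ρ³ = 1, ρ fixed-point-free.  `CX ρ x`: moreover x² = 1, x ρ = ρ² x.  `M ρ a = closure {a, ρ a} ⊔ centre`.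
Lemmas of the imported pieces H90Hs* may be used (their stubs are in notes/helper90/hs/).

SKETCH. a ∉ centre (exists_not_mem_center), b ∉ M ρ a (exists_not_mem_M), b ∉ centre.  M ρ a and M ρ b are normal of card 16, index 4 = 2^2, so the quotients are commutative
(IsPGroup.commutative_of_card_eq_prime_sq / card (T ⧸ M) = 4 from Subgroup.card_eq_card_quotient_mul_card_subgroup), so ⁅s,t⁆ ∈ M ρ a and ∈ M ρ b
(QuotientGroup.eq_one_iff, map_commutatorElement).  M_inf.
-/

namespace Cfsg.Agent.Lib.H90HsCl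

open Cfsg.Agent.Lib.H90HsDefs Cfsg.Agent.Lib.Helper18F4
open scoped commutatorElement
open Cfsg.Agent.Lib.H90HsInv Cfsg.Agent.Lib.H90HsMf Cfsg.Agent.Lib.H90HsCz Cfsg.Agent.Lib.H90HsCm Cfsg.Agent.Lib.H90HsMi Cfsg.Agent.Lib.H90HsMn

variable {T : Type*} [Group T] {ρ x : MulAut T}

theorem comm_mem_of_card16 (h : CR ρ) (N : Subgroup T) [N.Normal] (hN : Nat.card N = 16) (s t : T) :
    ⁅s, t⁆ ∈ N := by
  have hq : Nat.card (T ⧸ N) = 2 ^ 2 := by
    have := Subgroup.card_eq_card_quotient_mul_card_subgroup N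
    rw [h.card, hN] at this
    omega
  haveI : Fact (Nat.Prime 2) := ⟨Nat.prime_two⟩
  have hc : ∀ a b : T ⧸ N, a * b = b * a := IsPGroup.commutative_of_card_eq_prime_sq hq
  rw [← QuotientGroup.eq_one_iff]
  have : ((⁅s, t⁆ : T) : T ⧸ N) = ⁅(s : T ⧸ N), (t : T ⧸ N)⁆ :=
    map_commutatorElement (QuotientGroup.mk' N) s t
  rw [this, commutatorElement_eq_one_iff_mul_comm]
  exact hc _ _

theorem class2 (h : CR ρ) (s t : T) : ⁅s, t⁆ ∈ Subgroup.center T := by
  obtain ⟨a, ha⟩ := exists_not_mem_center h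
  obtain ⟨b, hb⟩ := exists_not_mem_M h a
  have hb' : b ∉ Subgroup.center T := fun hz => hb (center_le_M a hz)
  haveI := M_normal h ha
  haveI := M_normal h hb'
  rw [← M_inf h ha hb]
  exact ⟨comm_mem_of_card16 h _ (card_M h ha) s t, comm_mem_of_card16 h _ (card_M h hb') s t⟩

end Cfsg.Agent.Lib.H90HsCl
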