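import Mathlib
import Cfsg.Agent.Lib.H90HsDefs

set_option autoImplicit false
set_option linter.unusedSectionVars false

/-! Project 3157 (row S3157, 3u), piece Id.  Plan and conventions: notes/helper90/hs/README.md.
`CR ρ`: |T| = 64, T non-abelian, ρ³ = 1, ρ fixed-point-free.  `CX ρ x`: moreover x² = 1, x ρ = ρ² x.  `M ρ a = closure {a, ρ a} ⊔ centre`.
Lemmas of the imported pieces H90Hs* may be used (their stubs are in notes/helper90/hs/).

SKETCH. General identities in a group of class 2; ⁅s,t⁆ = s * t * s⁻¹ * t⁻¹ (commutatorElement_def).  Use Subgroup.mem_center_iff to move commutators around.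
swap: t * s = ⁅t,s⁆ * (s * t).  comm_mul_left: ⁅s*t,u⁆ = s * ⁅t,u⁆ * s⁻¹ * ⁅s,u⁆.
-/

namespace Cfsg.Agent.Lib.H90HsId

open Cfsg.Agent.Lib.H90HsDefs Cfsg.Agent.Lib.Helper18F4
open scoped commutatorElement

variable {T : Type*} [Group T] {ρ x : MulAut T}

theorem swap (hc : ∀ s t : T, ⁅s, t⁆ ∈ Subgroup.center T) (s t : T) : t * s = s * t * ⁅t, s⁆ := by
  have h := (Subgroup.mem_center_iff.1 (hc t s)) (s * t)
  rw [h, commutatorElement_def]
  group

theorem comm_mul_left (hc : ∀ s t : T, ⁅s, t⁆ ∈ Subgroup.center T) (s t u : T) :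
    ⁅s * t, u⁆ = ⁅s, u⁆ * ⁅t, u⁆ := by
  have h := (Subgroup.mem_center_iff.1 (hc t u)) s
  have h1 : ⁅s * t, u⁆ = s * ⁅t, u⁆ * s⁻¹ * ⁅s, u⁆ := by
    simp only [commutatorElement_def]
    group
  have h2 := (Subgroup.mem_center_iff.1 (hc t u)) ⁅s, u⁆
  rw [h1, h, mul_inv_cancel_right, h2]

theorem comm_mul_right (hc : ∀ s t : T, ⁅s, t⁆ ∈ Subgroup.center T) (s t u : T) :
    ⁅s, t * u⁆ = ⁅s, t⁆ * ⁅s, u⁆ := by
  have h := (Subgroup.mem_center_iff.1 (hc s u)) t
  have h1 : ⁅s, t * u⁆ = ⁅s, t⁆ * (t * ⁅s, u⁆ * t⁻¹) := by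
    simp only [commutatorElement_def]
    group
  rw [h1, h, mul_inv_cancel_right]

theorem mul_sq (hc : ∀ s t : T, ⁅s, t⁆ ∈ Subgroup.center T) (s t : T) :
    (s * t) * (s * t) = s * s * (t * t) * ⁅t, s⁆ := by
  have h := (Subgroup.mem_center_iff.1 (hc t s)) t
  calc (s * t) * (s * t) = s * (t * s) * t := by group
    _ = s * (s * t * ⁅t, s⁆) * t := by rw [swap hc s t]
    _ = s * s * t * (⁅t, s⁆ * t) := by group
    _ = s * s * t * (t * ⁅t, s⁆) := by rw [h]
    _ = s * s * (t * t) * ⁅t, s⁆ := by group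

theorem comm_inv_right (hc : ∀ s t : T, ⁅s, t⁆ ∈ Subgroup.center T) (s t : T) :
    ⁅s, t⁻¹⁆ = ⁅s, t⁆⁻¹ := by
  have h := comm_mul_right hc s t t⁻¹
  rw [mul_inv_cancel, commutatorElement_one_right] at h
  exact (inv_eq_of_mul_eq_one_right h.symm).symm

theorem comm_central (s z : T) (hz : z ∈ Subgroup.center T) : ⁅s, z⁆ = 1 ∧ ⁅z, s⁆ = 1 := by
  have h := (Subgroup.mem_center_iff.1 hz) s
  constructor
  · rw [commutatorElement_def, h]
    group
  · rw [commutatorElement_def, ← h]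
    group

end Cfsg.Agent.Lib.H90HsId
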