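import Mathlib
import Cfsg.Agent.Lib.H90HsDefs
import Cfsg.Agent.Lib.H90HsP3
import Cfsg.Agent.Lib.H90HsMf
import Cfsg.Agent.Lib.H90HsCz

set_option autoImplicit false
set_option linter.unusedSectionVars false

/-! Project 3157 (row S3157, 3u), piece Zs.  Plan and conventions: notes/helper90/hs/README.md.
`CR ρ`: |T| = 64, T non-abelian, ρ³ = 1, ρ fixed-point-free.  `CX ρ x`: moreover x² = 1, x ρ = ρ² x.  `M ρ a = closure {a, ρ a} ⊔ centre`.
Lemmas of the imported pieces H90Hs* may be used (their stubs are in notes/helper90/hs/).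

SKETCH. `center_eq`: 1, z0, ρ z0, ρ (ρ z0) are four distinct elements of the centre (h.fp, h.rho3, injectivity of ρ), which has card 4 (card_center).
`center_sq`: the centre has even order so contains an involution u (exists_prime_orderOf_dvd_card); by center_eq with z0 = u every element is 1, u, ρ u or ρ (ρ u), all of square 1.
-/

namespace Cfsg.Agent.Lib.H90HsZs

open Cfsg.Agent.Lib.H90HsDefs Cfsg.Agent.Lib.Helper18F4
open scoped commutatorElement
open Cfsg.Agent.Lib.H90HsP3 Cfsg.Agent.Lib.H90HsMf Cfsg.Agent.Lib.H90HsCz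

variable {T : Type*} [Group T] {ρ x : MulAut T}

theorem center_eq (h : CR ρ) {z0 : T} (hz : z0 ∈ Subgroup.center T) (h1 : z0 ≠ 1) :
    ∀ z ∈ Subgroup.center T, z = 1 ∨ z = z0 ∨ z = ρ z0 ∨ z = ρ (ρ z0) := by
  classical
  have hfin : Finite T := Nat.finite_of_card_ne_zero (by rw [h.card]; norm_num)
  haveI := Fintype.ofFinite (Subgroup.center T)
  have hr1 : ρ z0 ≠ z0 := fun e => h1 (h.fp _ e)
  have hr0 : ρ z0 ≠ 1 := fun e => h1 (by simpa using e)
  have hrr0 : ρ (ρ z0) ≠ 1 := fun e => hr0 (by simpa using e)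
  have hrr1 : ρ (ρ z0) ≠ ρ z0 := fun e => hr1 (ρ.injective e)
  have hrr2 : ρ (ρ z0) ≠ z0 := fun e => hr1 (by
    have h2 := congrArg ρ e
    rw [h.rho3] at h2
    exact h2.symm)
  let S : Finset (Subgroup.center T) := {1, ⟨z0, hz⟩, ⟨ρ z0, center_inv z0 hz⟩,
    ⟨ρ (ρ z0), center_inv _ (center_inv z0 hz)⟩}
  have hS : S.card = 4 := by
    have e1 : (⟨ρ z0, center_inv z0 hz⟩ : Subgroup.center T) ∉
        ({⟨ρ (ρ z0), center_inv _ (center_inv z0 hz)⟩} : Finset (Subgroup.center T)) := by
      rw [Finset.mem_singleton, Subtype.ext_iff]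
      exact hrr1.symm
    have e2 : (⟨z0, hz⟩ : Subgroup.center T) ∉
        ({⟨ρ z0, center_inv z0 hz⟩, ⟨ρ (ρ z0), center_inv _ (center_inv z0 hz)⟩} :
          Finset (Subgroup.center T)) := by
      rw [Finset.mem_insert, Finset.mem_singleton, Subtype.ext_iff, Subtype.ext_iff]
      rintro (e | e)
      · exact hr1 e.symm
      · exact hrr2 e.symm
    have e3 : (1 : Subgroup.center T) ∉
        ({⟨z0, hz⟩, ⟨ρ z0, center_inv z0 hz⟩, ⟨ρ (ρ z0), center_inv _ (center_inv z0 hz)⟩} :
          Finset (Subgroup.center T)) := by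
      rw [Finset.mem_insert, Finset.mem_insert, Finset.mem_singleton, Subtype.ext_iff,
        Subtype.ext_iff, Subtype.ext_iff]
      rintro (e | e | e)
      · exact h1 e.symm
      · exact hr0 e.symm
      · exact hrr0 e.symm
    show (insert _ (insert _ (insert _ _)) : Finset (Subgroup.center T)).card = 4
    rw [Finset.card_insert_of_notMem e3, Finset.card_insert_of_notMem e2,
      Finset.card_insert_of_notMem e1, Finset.card_singleton]
  have hU : S = Finset.univ :=
    Finset.eq_univ_of_card S (by rw [hS, ← Nat.card_eq_fintype_card, card_center h])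
  intro z hz'
  have h3 : (⟨z, hz'⟩ : Subgroup.center T) ∈ S := by rw [hU]; exact Finset.mem_univ _
  simp only [S, Finset.mem_insert, Finset.mem_singleton, Subtype.ext_iff] at h3
  exact h3

theorem center_sq (h : CR ρ) : ∀ z ∈ Subgroup.center T, z * z = 1 := by
  have hfin : Finite T := Nat.finite_of_card_ne_zero (by rw [h.card]; norm_num)
  haveI : Fact (Nat.Prime 2) := ⟨Nat.prime_two⟩
  obtain ⟨u, hu⟩ := exists_prime_orderOf_dvd_card' (G := Subgroup.center T) 2
    (by rw [card_center h]; norm_num)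
  have hu1 : (u : T) ≠ 1 := by
    intro e
    have : u = 1 := Subtype.ext e
    rw [this, orderOf_one] at hu
    norm_num at hu
  have hu2 : (u : T) * (u : T) = 1 := by
    have h2 : u ^ 2 = 1 := by rw [← hu]; exact pow_orderOf_eq_one u
    have h3 := congrArg Subtype.val h2
    simpa [pow_two] using h3
  intro z hz
  rcases center_eq h u.2 hu1 z hz with rfl | rfl | rfl | rfl
  · simp
  · exact hu2
  · rw [← map_mul, hu2, map_one]
  · rw [← map_mul, ← map_mul, hu2, map_one, map_one]

end Cfsg.Agent.Lib.H90HsZs
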