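import Mathlib
import Cfsg.Agent.Lib.H90HsDefs
import Cfsg.Agent.Lib.H90HsCl
import Cfsg.Agent.Lib.H90HsZs
import Cfsg.Agent.Lib.H90HsId

set_option autoImplicit false
set_option linter.unusedSectionVars false

/-! Project 3157 (row S3157, 3u), piece Sq.  Plan and conventions: notes/helper90/hs/README.md.
`CR ρ`: |T| = 64, T non-abelian, ρ³ = 1, ρ fixed-point-free.  `CX ρ x`: moreover x² = 1, x ρ = ρ² x.  `M ρ a = closure {a, ρ a} ⊔ centre`.
Lemmas of the imported pieces H90Hs* may be used (their stubs are in notes/helper90/hs/).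

SKETCH. comm_sq: class2 + center_sq.  comm_symm: ⁅s,t⁆⁻¹ = ⁅t,s⁆ (commutatorElement_inv) and comm_sq.  sq_mem: ⁅t*t,s⁆ = ⁅t,s⁆*⁅t,s⁆ = 1 (comm_mul_left),
commutatorElement_eq_one_iff_mul_comm, Subgroup.mem_center_iff.  pow4: (t*t)*(t*t) = 1.
-/

namespace Cfsg.Agent.Lib.H90HsSq

open Cfsg.Agent.Lib.H90HsDefs Cfsg.Agent.Lib.Helper18F4
open scoped commutatorElement
open Cfsg.Agent.Lib.H90HsCl Cfsg.Agent.Lib.H90HsZs Cfsg.Agent.Lib.H90HsId

variable {T : Type*} [Group T] {ρ x : MulAut T}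

theorem comm_sq (h : CR ρ) (s t : T) : ⁅s, t⁆ * ⁅s, t⁆ = 1 := by
  exact center_sq h _ (class2 h s t)

theorem comm_symm (h : CR ρ) (s t : T) : ⁅s, t⁆ = ⁅t, s⁆ := by
  rw [← commutatorElement_inv s t]
  exact eq_inv_of_mul_eq_one_left (comm_sq h s t)

theorem sq_mem (h : CR ρ) (t : T) : t * t ∈ Subgroup.center T := by
  rw [Subgroup.mem_center_iff]
  intro s
  have h1 : ⁅t * t, s⁆ = 1 := by
    rw [comm_mul_left (class2 h) t t s]; exact comm_sq h t s
  exact (commutatorElement_eq_one_iff_mul_comm.1 h1).symm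

end Cfsg.Agent.Lib.H90HsSq
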