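import Mathlib
import Cfsg.Agent.Lib.H90HsDefs
import Cfsg.Agent.Lib.H90HsP3
import Cfsg.Agent.Lib.H90HsMf
import Cfsg.Agent.Lib.H90HsCl
import Cfsg.Agent.Lib.H90HsZs
import Cfsg.Agent.Lib.H90HsId
import Cfsg.Agent.Lib.H90HsSq

set_option autoImplicit false
set_option linter.unusedSectionVars false

/-! Project 3157 (row S3157, 3u), piece Tw.  Plan and conventions: notes/helper90/hs/README.md.
`CR ρ`: |T| = 64, T non-abelian, ρ³ = 1, ρ fixed-point-free.  `CX ρ x`: moreover x² = 1, x ρ = ρ² x.  `M ρ a = closure {a, ρ a} ⊔ centre`.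
Lemmas of the imported pieces H90Hs* may be used (their stubs are in notes/helper90/hs/).

SKETCH. c(s,t) := ⁅s,t⁆ is bimultiplicative (Id.comm_mul_left/right with class2) with values in the centre (exponent 2, center_sq), ρ c(s,t) = c(ρ s, ρ t) (map_commutatorElement).
u := c(b,a), v := c(b,ρ a), w := c(b,ρ(ρ a)).  From a * ρ a * ρ(ρ a) = 1: u * v * w = 1.   c(ρ b, a) = ρ c(b, ρ(ρ a)) = ρ w,  c(ρ(ρ b), a) = ρ(ρ c(b, ρ a)) = ρ(ρ v)  (h.rho3).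
From b * ρ b * ρ(ρ b) = 1: u * ρ w * ρ(ρ v) = 1.  With w = u * v (exponent 2): u * ρ u * ρ v * ρ(ρ v) = 1.  prod3 for u and v: u * ρ u = ρ(ρ u) and ρ v * ρ(ρ v) = v (exponent 2, commutative).
So ρ(ρ u) * v = 1, v = ρ(ρ u).
-/

namespace Cfsg.Agent.Lib.H90HsTw

open Cfsg.Agent.Lib.H90HsDefs Cfsg.Agent.Lib.Helper18F4
open scoped commutatorElement
open Cfsg.Agent.Lib.H90HsP3 Cfsg.Agent.Lib.H90HsMf Cfsg.Agent.Lib.H90HsCl Cfsg.Agent.Lib.H90HsZs Cfsg.Agent.Lib.H90HsId Cfsg.Agent.Lib.H90HsSq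

variable {T : Type*} [Group T] {ρ x : MulAut T}

theorem twist (h : CR ρ) (a b : T) : ⁅b, ρ a⁆ = ρ (ρ ⁅b, a⁆) := by
  have hc := class2 h
  obtain ⟨u, hu⟩ : ∃ u, u = ⁅b, a⁆ := ⟨_, rfl⟩
  obtain ⟨v, hv⟩ : ∃ v, v = ⁅b, ρ a⁆ := ⟨_, rfl⟩
  obtain ⟨w, hw⟩ : ∃ w, w = ⁅b, ρ (ρ a)⁆ := ⟨_, rfl⟩
  have huu : u * u = 1 := by rw [hu]; exact comm_sq h b a
  have hvv : v * v = 1 := by rw [hv]; exact comm_sq h b (ρ a)
  have huc : u ∈ Subgroup.center T := by rw [hu]; exact hc b a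
  have e1 : u * v * w = 1 := by
    rw [hu, hv, hw, ← comm_mul_right hc, ← comm_mul_right hc, prod3 h a]
    simp
  have e2 : ⁅ρ b, a⁆ = ρ w := by
    rw [hw, map_commutatorElement, h.rho3]
  have e3 : ⁅ρ (ρ b), a⁆ = ρ (ρ v) := by
    rw [hv, map_commutatorElement, map_commutatorElement, h.rho3]
  have e4 : u * ρ w * ρ (ρ v) = 1 := by
    rw [hu, ← e2, ← e3, ← comm_mul_left hc, ← comm_mul_left hc, prod3 h b]
    simp
  have hw' : w = u * v := by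
    have h1 : w = (u * v)⁻¹ := eq_inv_of_mul_eq_one_right e1
    rw [h1, mul_inv_rev, inv_eq_of_mul_eq_one_left huu, inv_eq_of_mul_eq_one_left hvv]
    exact Subgroup.mem_center_iff.1 huc v
  rw [hw', map_mul] at e4
  have p1 : u * ρ u = ρ (ρ u) := by
    have h1 := prod3 h u
    have h2 : ρ (ρ u) * ρ (ρ u) = 1 := by rw [← map_mul, ← map_mul, huu, map_one, map_one]
    rw [eq_inv_of_mul_eq_one_left h1, inv_eq_of_mul_eq_one_left h2]
  have p2 : ρ v * ρ (ρ v) = v := by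
    have h1 := prod3 h v
    rw [mul_assoc] at h1
    rw [eq_inv_of_mul_eq_one_right h1, inv_eq_of_mul_eq_one_left hvv]
  have e5 : ρ (ρ u) * v = 1 := by
    rw [← p1, ← p2, ← e4]
    simp only [mul_assoc]
  rw [← hv, ← hu, eq_inv_of_mul_eq_one_right e5]
  have h2 : ρ (ρ u) * ρ (ρ u) = 1 := by rw [← map_mul, ← map_mul, huu, map_one, map_one]
  exact inv_eq_of_mul_eq_one_left h2

end Cfsg.Agent.Lib.H90HsTw
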