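import Mathlib
import Cfsg.Agent.Lib.H90HsDefs
import Cfsg.Agent.Lib.H90HsCl
import Cfsg.Agent.Lib.H90HsId
import Cfsg.Agent.Lib.H90HsSq
import Cfsg.Agent.Lib.H90HsTw

set_option autoImplicit false
set_option linter.unusedSectionVars false

/-! Project 3157 (row S3157, 3u), piece Cr.  Plan and conventions: notes/helper90/hs/README.md.
`CR ρ`: |T| = 64, T non-abelian, ρ³ = 1, ρ fixed-point-free.  `CX ρ x`: moreover x² = 1, x ρ = ρ² x.  `M ρ a = closure {a, ρ a} ⊔ centre`.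
Lemmas of the imported pieces H90Hs* may be used (their stubs are in notes/helper90/hs/).

SKETCH. By Id.swap it is enough to show ⁅al ρ b t, al ρ a s⁆ = ze ρ ⁅b,a⁆ (s * t).  16 cases (rcases s, t with ⟨_ | _, _ | _⟩; unfold al ze co3; products in F4c by rfl/decide).  z := ⁅b,a⁆.
⁅b,ρ a⁆ = ρρz (twist), ⁅b,ρρa⁆ = ρρρρz = ρ z, ⁅ρ b,a⁆ = ⁅a,ρ b⁆ = ρρ⁅a,b⁆ = ρρz (comm_symm), ⁅ρ b,ρ a⁆ = ρ z (map_commutatorElement), ⁅ρ b,ρρa⁆ = ρ⁅b,ρ a⁆ = z,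
⁅ρρb,a⁆ = ρ z, ⁅ρρb,ρ a⁆ = ρ⁅ρ b,a⁆ = z, ⁅ρρb,ρρa⁆ = ρρz.   ze: 1 ↦ z, ω ↦ ρρz, ω² ↦ ρ z.
-/

namespace Cfsg.Agent.Lib.H90HsCr

open Cfsg.Agent.Lib.H90HsDefs Cfsg.Agent.Lib.Helper18F4
open scoped commutatorElement
open Cfsg.Agent.Lib.H90HsCl Cfsg.Agent.Lib.H90HsId Cfsg.Agent.Lib.H90HsSq Cfsg.Agent.Lib.H90HsTw

variable {T : Type*} [Group T] {ρ x : MulAut T}

theorem comm_al (h : CR ρ) (a b : T) (s t : F4c) :
    ⁅al ρ b t, al ρ a s⁆ = ze ρ ⁅b, a⁆ (s * t) := by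
  have tw : ∀ a b : T, ⁅b, ρ a⁆ = ρ (ρ ⁅b, a⁆) := fun a b => twist h a b
  have mp : ∀ s t : T, ⁅ρ s, ρ t⁆ = ρ ⁅s, t⁆ := fun s t => (map_commutatorElement ρ s t).symm
  have r3 := h.rho3
  have sy : ∀ s t : T, ⁅s, t⁆ = ⁅t, s⁆ := fun s t => comm_symm h s t
  have e01 : ⁅b, ρ a⁆ = ρ (ρ ⁅b, a⁆) := tw a b
  have e02 : ⁅b, ρ (ρ a)⁆ = ρ ⁅b, a⁆ := by rw [tw, tw, r3]
  have e10 : ⁅ρ b, a⁆ = ρ (ρ ⁅b, a⁆) := by rw [sy, tw, sy a b]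
  have e11 : ⁅ρ b, ρ a⁆ = ρ ⁅b, a⁆ := mp b a
  have e12 : ⁅ρ b, ρ (ρ a)⁆ = ⁅b, a⁆ := by rw [mp, tw, r3]
  have e20 : ⁅ρ (ρ b), a⁆ = ρ ⁅b, a⁆ := by rw [sy, tw, tw, r3, sy a b]
  have e21 : ⁅ρ (ρ b), ρ a⁆ = ⁅b, a⁆ := by rw [mp, e10, r3]
  have e22 : ⁅ρ (ρ b), ρ (ρ a)⁆ = ρ (ρ ⁅b, a⁆) := by rw [mp, mp]
  rcases s with ⟨_ | _, _ | _⟩ <;> rcases t with ⟨_ | _, _ | _⟩
  · exact commutatorElement_one_right _
  · exact commutatorElement_one_right _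
  · exact commutatorElement_one_right _
  · exact commutatorElement_one_right _
  · exact commutatorElement_one_left _
  · exact e11
  · exact e01
  · exact e21
  · exact commutatorElement_one_left _
  · exact e10
  · exact rfl
  · exact e20
  · exact commutatorElement_one_left _
  · exact e12
  · exact e02
  · exact e22

theorem comm_rel (h : CR ρ) (a b : T) (s t : F4c) :
    al ρ b t * al ρ a s = al ρ a s * al ρ b t * ze ρ ⁅b, a⁆ (s * t) := by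
  rw [← comm_al h a b s t]
  exact swap (class2 h) _ _

end Cfsg.Agent.Lib.H90HsCr
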