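import Mathlib
import Cfsg.Agent.Lib.H90HsDefs
import Cfsg.Agent.Lib.H90HsP3
import Cfsg.Agent.Lib.H90HsCl
import Cfsg.Agent.Lib.H90HsSq
import Cfsg.Agent.Lib.H90HsId

set_option autoImplicit false
set_option linter.unusedSectionVars false

/-! Project 3157 (row S3157, 3u), piece Dm.  Plan and conventions: notes/helper90/hs/README.md.
`CR ρ`: |T| = 64, T non-abelian, ρ³ = 1, ρ fixed-point-free.  `CX ρ x`: moreover x² = 1, x ρ = ρ² x.  `M ρ a = closure {a, ρ a} ⊔ centre`.
Lemmas of the imported pieces H90Hs* may be used (their stubs are in notes/helper90/hs/).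

SKETCH. c2 := t * x t, c1 := t * (ρ c2)⁻¹, so t = c1 * ρ c2 trivially.  Work in V := T ⧸ centre (π := QuotientGroup.mk' _), which is commutative (class2) of exponent 2 (sq_mem);  g ∈ centre ↔ π g = 1.
π(c2⁻¹ * x c2) = π t + π (x t) + π (x t) + π t = 0 (h.x2).   π c1 = π t + π(ρ t) + π(ρ (x t));  x c1 = x t * (x(ρ t) * x(ρ(x t)))⁻¹ with x(ρ t) = ρ(ρ(x t)), x(ρ(x t)) = ρ(ρ t) (h.xr, h.x2).
Sum = π(t * ρ t * ρ(ρ t)) + π(x t * ρ(x t) * ρ(ρ(x t))) = 0 (prod3).
-/

namespace Cfsg.Agent.Lib.H90HsDm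

open Cfsg.Agent.Lib.H90HsDefs Cfsg.Agent.Lib.Helper18F4
open scoped commutatorElement
open Cfsg.Agent.Lib.H90HsP3 Cfsg.Agent.Lib.H90HsCl Cfsg.Agent.Lib.H90HsSq Cfsg.Agent.Lib.H90HsId

variable {T : Type*} [Group T] {ρ x : MulAut T}

theorem decomp_modZ (h : CX ρ x) (t : T) : ∃ c1 c2 : T, c1⁻¹ * x c1 ∈ Subgroup.center T ∧
    c2⁻¹ * x c2 ∈ Subgroup.center T ∧ t = c1 * ρ c2 := by
  have hc := class2 h.toCR
  refine ⟨t * (ρ (t * x t))⁻¹, t * x t, ?_, ?_, by group⟩
  · rw [← QuotientGroup.eq_one_iff]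
    have hcomm : ∀ X Y : T ⧸ Subgroup.center T, X * Y = Y * X := by
      intro X Y
      induction X using QuotientGroup.induction_on with
      | H s =>
        induction Y using QuotientGroup.induction_on with
        | H u =>
          have h1 : ((⁅s, u⁆ : T) : T ⧸ Subgroup.center T) = 1 := (QuotientGroup.eq_one_iff _).2 (hc s u)
          rw [commutatorElement_def] at h1
          rw [QuotientGroup.mk_mul, QuotientGroup.mk_mul, QuotientGroup.mk_mul, QuotientGroup.mk_inv,
            QuotientGroup.mk_inv, mul_inv_eq_one, mul_inv_eq_iff_eq_mul] at h1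
          exact h1
    have hsq : ∀ X : T ⧸ Subgroup.center T, X * X = 1 := by
      intro X
      induction X using QuotientGroup.induction_on with
      | H s =>
        have h1 : ((s * s : T) : T ⧸ Subgroup.center T) = 1 :=
          (QuotientGroup.eq_one_iff _).2 (sq_mem h.toCR s)
        exact h1
    have hinv : ∀ X : T ⧸ Subgroup.center T, X⁻¹ = X := fun X => inv_eq_of_mul_eq_one_left (hsq X)
    have r1 : ((t : T) : T ⧸ Subgroup.center T) * (ρ t : T) * (ρ (ρ t) : T) = 1 := by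
      have := congrArg (fun g : T => (g : T ⧸ Subgroup.center T)) (prod3 h.toCR t)
      exact this
    have r2 : ((x t : T) : T ⧸ Subgroup.center T) * (ρ (x t) : T) * (ρ (ρ (x t)) : T) = 1 := by
      have := congrArg (fun g : T => (g : T ⧸ Subgroup.center T)) (prod3 h.toCR (x t))
      exact this
    simp only [map_mul, map_inv, h.xr, h.x2]
    simp only [QuotientGroup.mk_mul, QuotientGroup.mk_inv, hinv]
    haveI : Std.Commutative (α := T ⧸ Subgroup.center T) (· * ·) := ⟨hcomm⟩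
    calc _ = (((t : T) : T ⧸ Subgroup.center T) * (ρ t : T) * (ρ (ρ t) : T))
          * (((x t : T) : T ⧸ Subgroup.center T) * (ρ (x t) : T) * (ρ (ρ (x t)) : T)) := by ac_rfl
      _ = 1 := by rw [r1, r2, one_mul]
  · have h1 : (t * x t)⁻¹ * x (t * x t) = ⁅(x t)⁻¹, t⁻¹⁆ := by
      rw [map_mul, h.x2, commutatorElement_def]
      group
    rw [h1]
    exact hc _ _

end Cfsg.Agent.Lib.H90HsDm
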