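import Mathlib
import Cfsg.Agent.Lib.H90HsDefs
import Cfsg.Agent.Lib.H90HsP3
import Cfsg.Agent.Lib.H90HsMf
import Cfsg.Agent.Lib.H90HsCz
import Cfsg.Agent.Lib.H90HsZs

set_option autoImplicit false
set_option linter.unusedSectionVars false

/-! Project 3157 (row S3157, 3u), piece Xz.  Plan and conventions: notes/helper90/hs/README.md.
`CR ρ`: |T| = 64, T non-abelian, ρ³ = 1, ρ fixed-point-free.  `CX ρ x`: moreover x² = 1, x ρ = ρ² x.  `M ρ a = closure {a, ρ a} ⊔ centre`.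
Lemmas of the imported pieces H90Hs* may be used (their stubs are in notes/helper90/hs/).

SKETCH. x maps the centre to itself (Mf.center_inv works for any automorphism).  Pick z ≠ 1 central (card 4).  If z * x z ≠ 1 take z0 := z * x z (fixed: x2, commutativity); else x z = z⁻¹ = z (center_sq), z0 := z.
Uniqueness: center_eq: z ∈ {1, z0, ρ z0, ρ(ρ z0)};  x (ρ z0) = ρ(ρ z0) ≠ ρ z0 (h.xr; else ρ z0 is ρ-fixed, z0 = 1);  x (ρ(ρ z0)) = ρ(ρ(ρ(ρ z0))) = ρ z0 ≠ ρ(ρ z0).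
-/

namespace Cfsg.Agent.Lib.H90HsXz

open Cfsg.Agent.Lib.H90HsDefs Cfsg.Agent.Lib.Helper18F4
open scoped commutatorElement
open Cfsg.Agent.Lib.H90HsP3 Cfsg.Agent.Lib.H90HsMf Cfsg.Agent.Lib.H90HsCz Cfsg.Agent.Lib.H90HsZs

variable {T : Type*} [Group T] {ρ x : MulAut T}

theorem fix_center (h : CX ρ x) : ∃ z0 ∈ Subgroup.center T, z0 ≠ 1 ∧ x z0 = z0 ∧
    ∀ z ∈ Subgroup.center T, x z = z → z = 1 ∨ z = z0 := by
  have hcr : CR ρ := h.toCR
  have hex : ∃ z ∈ Subgroup.center T, z ≠ 1 := by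
    by_contra hcon
    have hcon' : ∀ z ∈ Subgroup.center T, z = 1 := by
      intro z hz
      by_contra hne
      exact hcon ⟨z, hz, hne⟩
    have h3 : Subgroup.center T = ⊥ := (Subgroup.eq_bot_iff_forall _).2 hcon'
    have h4 := card_center hcr
    rw [h3] at h4
    simp at h4
  obtain ⟨z, hz, hz1⟩ := hex
  have hxz : x z ∈ Subgroup.center T := center_inv (ρ := x) z hz
  have hex2 : ∃ z0 ∈ Subgroup.center T, z0 ≠ 1 ∧ x z0 = z0 := by
    by_cases hc : z * x z = 1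
    · refine ⟨z, hz, hz1, ?_⟩
      have h5 : x z = z⁻¹ := eq_inv_of_mul_eq_one_right hc
      have h6 : z = z⁻¹ := eq_inv_of_mul_eq_one_left (center_sq hcr z hz)
      rw [h5, ← h6]
    · refine ⟨z * x z, Subgroup.mul_mem _ hz hxz, hc, ?_⟩
      rw [map_mul, h.x2]
      exact (Subgroup.mem_center_iff.1 hz (x z))
  obtain ⟨z0, hz0, hz01, hxz0⟩ := hex2
  refine ⟨z0, hz0, hz01, hxz0, ?_⟩
  intro w hw hxw
  rcases center_eq hcr hz0 hz01 w hw with rfl | rfl | rfl | rfl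
  · left; rfl
  · right; rfl
  · exfalso
    rw [h.xr, hxz0] at hxw
    have h7 := ρ.injective hxw
    exact hz01 (hcr.fp _ h7)
  · exfalso
    rw [h.xr, h.xr, hxz0, hcr.rho3] at hxw
    have h7 := ρ.injective hxw
    exact hz01 (hcr.fp _ h7.symm)

end Cfsg.Agent.Lib.H90HsXz
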