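import Mathlib
import Cfsg.Agent.Lib.H90HsDefs
import Cfsg.Agent.Lib.H90HsP3
import Cfsg.Agent.Lib.H90HsMf
import Cfsg.Agent.Lib.H90HsZs
import Cfsg.Agent.Lib.H90HsXz

set_option autoImplicit false
set_option linter.unusedSectionVars false

/-! Project 3157 (row S3157, 3u), piece Li.  Plan and conventions: notes/helper90/hs/README.md.
`CR ρ`: |T| = 64, T non-abelian, ρ³ = 1, ρ fixed-point-free.  `CX ρ x`: moreover x² = 1, x ρ = ρ² x.  `M ρ a = closure {a, ρ a} ⊔ centre`.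
Lemmas of the imported pieces H90Hs* may be used (their stubs are in notes/helper90/hs/).

SKETCH. y := t⁻¹ * x t central, x t = t * y.  t = x (x t) = t * y * x y so x y = y⁻¹ = y (center_sq).  fix_center: y = 1 (take z = 1) or y = z0: take z := ρ z0:
x (t * ρ z0) = t * z0 * ρ(ρ z0) (h.xr) and z0 * ρ(ρ z0) = ρ z0 (prod3 z0, exponent 2, commutative).
-/

namespace Cfsg.Agent.Lib.H90HsLi

open Cfsg.Agent.Lib.H90HsDefs Cfsg.Agent.Lib.Helper18F4
open scoped commutatorElement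
open Cfsg.Agent.Lib.H90HsP3 Cfsg.Agent.Lib.H90HsMf Cfsg.Agent.Lib.H90HsZs Cfsg.Agent.Lib.H90HsXz

variable {T : Type*} [Group T] {ρ x : MulAut T}

theorem lift (h : CX ρ x) {t : T} (ht : t⁻¹ * x t ∈ Subgroup.center T) :
    ∃ z ∈ Subgroup.center T, x (t * z) = t * z := by
  have hcr : CR ρ := h.toCR
  set y := t⁻¹ * x t with hy
  have h1 : x t = t * y := by rw [hy]; group
  have h2 : x y = y := by
    have h3 : t * y * x y = t := by
      have h0 := h.x2 t
      rw [h1, map_mul, h1] at h0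
      exact h0
    have h4 : y * x y = 1 := by
      have h0 : t * (y * x y) = t * 1 := by rw [mul_one, ← mul_assoc]; exact h3
      exact mul_left_cancel h0
    have h5 : x y = y⁻¹ := eq_inv_of_mul_eq_one_right h4
    have h6 : y = y⁻¹ := eq_inv_of_mul_eq_one_left (center_sq hcr y ht)
    rw [h5, ← h6]
  obtain ⟨z0, hz0, hz01, hxz0, huniq⟩ := fix_center h
  rcases huniq y ht h2 with hy1 | hy0
  · exact ⟨1, Subgroup.one_mem _, by rw [mul_one, h1, hy1, mul_one]⟩
  · refine ⟨ρ z0, center_inv z0 hz0, ?_⟩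
    rw [map_mul, h1, hy0, h.xr, hxz0]
    have h7 := prod3 hcr z0
    have h8 : ρ z0 * ρ z0 = 1 := center_sq hcr _ (center_inv z0 hz0)
    have h9 : z0 * ρ (ρ z0) = ρ z0 := by
      have hc : z0 * ρ z0 = ρ z0 * z0 := comm_rho hcr z0
      calc z0 * ρ (ρ z0) = (ρ z0 * ρ z0) * (z0 * ρ (ρ z0)) := by rw [h8, one_mul]
        _ = ρ z0 * (ρ z0 * z0) * ρ (ρ z0) := by group
        _ = ρ z0 * (z0 * ρ z0 * ρ (ρ z0)) := by rw [← hc]; group
        _ = ρ z0 := by rw [h7, mul_one]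
    rw [mul_assoc, h9]

end Cfsg.Agent.Lib.H90HsLi
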