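import Mathlib
import Cfsg.Agent.Lib.H90HsDefs
import Cfsg.Agent.Lib.H90HsP3
import Cfsg.Agent.Lib.H90HsMf
import Cfsg.Agent.Lib.H90HsZs
import Cfsg.Agent.Lib.H90HsXz
import Cfsg.Agent.Lib.H90HsLi
import Cfsg.Agent.Lib.H90HsDm

set_option autoImplicit false
set_option linter.unusedSectionVars false

/-! Project 3157 (row S3157, 3u), piece Dc.  Plan and conventions: notes/helper90/hs/README.md.
`CR ρ`: |T| = 64, T non-abelian, ρ³ = 1, ρ fixed-point-free.  `CX ρ x`: moreover x² = 1, x ρ = ρ² x.  `M ρ a = closure {a, ρ a} ⊔ centre`.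
Lemmas of the imported pieces H90Hs* may be used (their stubs are in notes/helper90/hs/).

SKETCH. decomp_modZ gives c1', c2'; lift gives central z1, z2 with c1 := c1' * z1, c2 := c2' * z2 fixed by x.  t = c1 * ρ c2 * y with y := (z1 * ρ z2)⁻¹ central.
fix_center z0 + center_eq: y ∈ {1, z0, ρ z0, ρ(ρ z0) = z0 * ρ z0 (prod3, exponent 2)} i.e. y = y1 * ρ y2 with y1, y2 ∈ {1, z0} fixed by x.  Answer: (c1 * y1, c2 * y2).
-/

namespace Cfsg.Agent.Lib.H90HsDc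

open Cfsg.Agent.Lib.H90HsDefs Cfsg.Agent.Lib.Helper18F4
open scoped commutatorElement
open Cfsg.Agent.Lib.H90HsP3 Cfsg.Agent.Lib.H90HsMf Cfsg.Agent.Lib.H90HsZs Cfsg.Agent.Lib.H90HsXz Cfsg.Agent.Lib.H90HsLi Cfsg.Agent.Lib.H90HsDm

variable {T : Type*} [Group T] {ρ x : MulAut T}

theorem decomp (h : CX ρ x) (t : T) : ∃ c1 c2 : T, x c1 = c1 ∧ x c2 = c2 ∧ t = c1 * ρ c2 := by
  obtain ⟨c1', c2', hc1, hc2, ht⟩ := decomp_modZ h t
  obtain ⟨z1, hz1, hx1⟩ := lift h hc1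
  obtain ⟨z2, hz2, hx2⟩ := lift h hc2
  obtain ⟨z0, hz0, hz01, hxz0, -⟩ := fix_center h
  have hρz2 : ρ z2 ∈ Subgroup.center T := center_inv z2 hz2
  have hy : (z1 * ρ z2)⁻¹ ∈ Subgroup.center T :=
    Subgroup.inv_mem _ (Subgroup.mul_mem _ hz1 hρz2)
  have ht' : t = (c1' * z1) * ρ (c2' * z2) * (z1 * ρ z2)⁻¹ := by
    rw [ht, map_mul]
    have e1 : z1 * ρ c2' = ρ c2' * z1 := (Subgroup.mem_center_iff.1 hz1 (ρ c2')).symm
    calc c1' * ρ c2' = c1' * (ρ c2' * z1) * ρ z2 * (z1 * ρ z2)⁻¹ := by group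
      _ = c1' * (z1 * ρ c2') * ρ z2 * (z1 * ρ z2)⁻¹ := by rw [e1]
      _ = _ := by group
  have key : ∀ y1 y2 : T, y1 ∈ Subgroup.center T → x y1 = y1 → x y2 = y2 →
      (z1 * ρ z2)⁻¹ = y1 * ρ y2 → ∃ c1 c2 : T, x c1 = c1 ∧ x c2 = c2 ∧ t = c1 * ρ c2 := by
    intro y1 y2 hy1 hxy1 hxy2 he
    refine ⟨c1' * z1 * y1, c2' * z2 * y2, ?_, ?_, ?_⟩
    · rw [map_mul, hx1, hxy1]
    · rw [map_mul, hx2, hxy2]
    · rw [ht', he, map_mul ρ (c2' * z2) y2]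
      have e1 : y1 * ρ (c2' * z2) = ρ (c2' * z2) * y1 :=
        (Subgroup.mem_center_iff.1 hy1 (ρ (c2' * z2))).symm
      calc c1' * z1 * ρ (c2' * z2) * (y1 * ρ y2) = c1' * z1 * (ρ (c2' * z2) * y1) * ρ y2 := by group
        _ = c1' * z1 * (y1 * ρ (c2' * z2)) * ρ y2 := by rw [e1]
        _ = _ := by group
  rcases center_eq h.toCR hz0 hz01 _ hy with e | e | e | e
  · exact key 1 1 (Subgroup.one_mem _) (map_one x) (map_one x) (by rw [e, map_one, one_mul])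
  · exact key z0 1 hz0 hxz0 (map_one x) (by rw [e, map_one, mul_one])
  · exact key 1 z0 (Subgroup.one_mem _) (map_one x) hxz0 (by rw [e, one_mul])
  · refine key z0 z0 hz0 hxz0 hxz0 ?_
    rw [e, rho2_eq h.toCR z0]
    have hzz : z0 * ρ z0 ∈ Subgroup.center T := Subgroup.mul_mem _ hz0 (center_inv z0 hz0)
    exact inv_eq_of_mul_eq_one_left (center_sq h.toCR _ hzz)

end Cfsg.Agent.Lib.H90HsDc
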