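import Mathlib
import Cfsg.Agent.Lib.H90HsDefs
import Cfsg.Agent.Lib.H90HsP3
import Cfsg.Agent.Lib.H90HsMf
import Cfsg.Agent.Lib.H90HsZs
import Cfsg.Agent.Lib.H90HsSq

set_option autoImplicit false
set_option linter.unusedSectionVars false

/-! Project 3157 (row S3157, 3u), piece Fv.  Plan and conventions: notes/helper90/hs/README.md.
`CR ρ`: |T| = 64, T non-abelian, ρ³ = 1, ρ fixed-point-free.  `CX ρ x`: moreover x² = 1, x ρ = ρ² x.  `M ρ a = closure {a, ρ a} ⊔ centre`.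
Lemmas of the imported pieces H90Hs* may be used (their stubs are in notes/helper90/hs/).

SKETCH. z := t⁻¹ * ρ t central: ρ t = t * z, ρ(ρ t) = t * z * ρ z.  prod3: 1 = t * (t * z) * (t * z * ρ z) = (t * t) * t * (z * z * ρ z), so t = ((t*t) * (z*z*ρ z))⁻¹ is central (sq_mem, center_inv).
-/

namespace Cfsg.Agent.Lib.H90HsFv

open Cfsg.Agent.Lib.H90HsDefs Cfsg.Agent.Lib.Helper18F4
open scoped commutatorElement
open Cfsg.Agent.Lib.H90HsP3 Cfsg.Agent.Lib.H90HsMf Cfsg.Agent.Lib.H90HsZs Cfsg.Agent.Lib.H90HsSq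

variable {T : Type*} [Group T] {ρ x : MulAut T}

theorem fpV (h : CR ρ) {t : T} (ht : t⁻¹ * ρ t ∈ Subgroup.center T) : t ∈ Subgroup.center T := by
  set z := t⁻¹ * ρ t with hz
  have h1 : ρ t = t * z := by rw [hz]; group
  have hρz : ρ z ∈ Subgroup.center T := center_inv z ht
  have h2 : ρ (ρ t) = t * z * ρ z := by rw [h1, map_mul, h1]
  have h3 := prod3 h t
  rw [h2, h1] at h3
  have hzc : ∀ s : T, s * z = z * s := fun s => (Subgroup.mem_center_iff.1 ht s)
  have h4 : t * (t * z) * (t * z * ρ z) = t * ((t * t) * (z * z * ρ z)) := by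
    calc t * (t * z) * (t * z * ρ z) = t * t * (z * t) * z * ρ z := by group
      _ = t * t * (t * z) * z * ρ z := by rw [hzc t]
      _ = _ := by group
  rw [h4] at h3
  have h5 : t = ((t * t) * (z * z * ρ z))⁻¹ := eq_inv_of_mul_eq_one_left h3
  rw [h5]
  exact Subgroup.inv_mem _ (Subgroup.mul_mem _ (sq_mem h t)
    (Subgroup.mul_mem _ (Subgroup.mul_mem _ ht ht) hρz))

end Cfsg.Agent.Lib.H90HsFv
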