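import Mathlib
import Cfsg.Agent.Lib.H90HsDefs

set_option autoImplicit false
set_option linter.unusedSectionVars false

/-! Project 3157 (row S3157, 3u), piece Ij.  Plan and conventions: notes/helper90/hs/README.md.
`CR ρ`: |T| = 64, T non-abelian, ρ³ = 1, ρ fixed-point-free.  `CX ρ x`: moreover x² = 1, x ρ = ρ² x.  `M ρ a = closure {a, ρ a} ⊔ centre`.
Lemmas of the imported pieces H90Hs* may be used (their stubs are in notes/helper90/hs/).

SKETCH. d1⁻¹ * c1 = ρ (d2 * c2⁻¹) =: ρ s with s and ρ s fixed by x: ρ s = x (ρ s) = ρ(ρ (x s)) = ρ(ρ s), so ρ s = s... precisely ρ (ρ s) = ρ s ⇒ ρ s = s (injectivity) ⇒ s = 1 (h.fp).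
`card_fix_le`: (c1,c2) ↦ c1 * ρ c2 is injective Fx x × Fx x → T, so card² ≤ 64 (Nat.card_le_card_of_injective, Nat.card_prod), nlinarith.
-/

namespace Cfsg.Agent.Lib.H90HsIj

open Cfsg.Agent.Lib.H90HsDefs Cfsg.Agent.Lib.Helper18F4
open scoped commutatorElement

variable {T : Type*} [Group T] {ρ x : MulAut T}

theorem inj_CC (h : CX ρ x) {c1 c2 d1 d2 : T} (hc1 : x c1 = c1) (hc2 : x c2 = c2) (hd1 : x d1 = d1)
    (hd2 : x d2 = d2) (he : c1 * ρ c2 = d1 * ρ d2) : c1 = d1 ∧ c2 = d2 := by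
  obtain ⟨s, hs⟩ : ∃ s, s = d2 * c2⁻¹ := ⟨_, rfl⟩
  have hxs : x s = s := by rw [hs, map_mul, map_inv, hd2, hc2]
  have h1 : d1⁻¹ * c1 = ρ s := by
    rw [hs, map_mul, map_inv]
    have : c1 = d1 * ρ d2 * (ρ c2)⁻¹ := by rw [← he]; group
    rw [this]
    group
  have hxr : x (ρ s) = ρ s := by rw [← h1, map_mul, map_inv, hd1, hc1]
  have h2 : ρ (ρ s) = ρ s := by
    have := h.xr s
    rw [hxs] at this
    rw [← this, hxr]
  have h3 : ρ s = s := ρ.injective h2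
  have h4 : s = 1 := h.fp s h3
  constructor
  · rw [h4, map_one] at h1
    exact (inv_mul_eq_one.1 h1).symm
  · rw [h4] at hs
    exact (mul_inv_eq_one.1 hs.symm).symm

theorem card_fix_le (h : CX ρ x) : Nat.card (Fx x) ≤ 8 := by
  haveI : Finite T := Nat.finite_of_card_ne_zero (by rw [h.card]; norm_num)
  have hinj : Function.Injective (fun p : Fx x × Fx x => (p.1 : T) * ρ (p.2 : T)) := by
    rintro ⟨c1, c2⟩ ⟨d1, d2⟩ he
    obtain ⟨e1, e2⟩ := inj_CC h c1.2 c2.2 d1.2 d2.2 he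
    exact Prod.ext (Subtype.ext e1) (Subtype.ext e2)
  have h1 := Nat.card_le_card_of_injective _ hinj
  rw [Nat.card_prod, h.card] at h1
  nlinarith

end Cfsg.Agent.Lib.H90HsIj
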