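import Mathlib
import Cfsg.Agent.Lib.H90HsDefs
import Cfsg.Agent.Lib.H90HsIj
import Cfsg.Agent.Lib.H90HsDc

set_option autoImplicit false
set_option linter.unusedSectionVars false

/-! Project 3157 (row S3157, 3u), piece Ge.  Plan and conventions: notes/helper90/hs/README.md.
`CR ρ`: |T| = 64, T non-abelian, ρ³ = 1, ρ fixed-point-free.  `CX ρ x`: moreover x² = 1, x ρ = ρ² x.  `M ρ a = closure {a, ρ a} ⊔ centre`.
Lemmas of the imported pieces H90Hs* may be used (their stubs are in notes/helper90/hs/).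

SKETCH. (c1,c2) ↦ c1 * ρ c2 is surjective Fx x × Fx x → T (decomp), so 64 ≤ card² (Nat.card_le_card_of_surjective / Finite.card_le_of_surjective, Nat.card_prod); with card_fix_le: card = 8 (nlinarith / interval_cases).
-/

namespace Cfsg.Agent.Lib.H90HsGe

open Cfsg.Agent.Lib.H90HsDefs Cfsg.Agent.Lib.Helper18F4
open scoped commutatorElement
open Cfsg.Agent.Lib.H90HsIj Cfsg.Agent.Lib.H90HsDc

variable {T : Type*} [Group T] {ρ x : MulAut T}

theorem card_fix (h : CX ρ x) : Nat.card (Fx x) = 8 := by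
  have hfin : Finite T := Nat.finite_of_card_ne_zero (by rw [h.card]; norm_num)
  have hle := card_fix_le h
  let f : Fx x × Fx x → T := fun c => (c.1 : T) * ρ (c.2 : T)
  have hsurj : Function.Surjective f := by
    intro t
    obtain ⟨c1, c2, h1, h2, ht⟩ := decomp h t
    exact ⟨(⟨c1, h1⟩, ⟨c2, h2⟩), ht.symm⟩
  have h1 := Nat.card_le_card_of_surjective f hsurj
  rw [Nat.card_prod, h.card] at h1
  generalize Nat.card (Fx x) = n at *
  interval_cases n <;> omega

end Cfsg.Agent.Lib.H90HsGe
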