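import Mathlib
import Cfsg.Agent.Lib.H90HsDefs

set_option autoImplicit false
set_option linter.unusedSectionVars false

/-! Project 3157 (row S3157, 3u), piece Hh.  Plan and conventions: notes/helper90/hs/README.md.
`CR ρ`: |T| = 64, T non-abelian, ρ³ = 1, ρ fixed-point-free.  `CX ρ x`: moreover x² = 1, x ρ = ρ² x.  `M ρ a = closure {a, ρ a} ⊔ centre`.
Lemmas of the imported pieces H90Hs* may be used (their stubs are in notes/helper90/hs/).

SKETCH. φ p := α p.a * β p.b * ζ p.c;  MonoidHom.mk' (only map_mul is needed).  α a β b ζ c α a' β b' ζ c' = α a (β b α a') β b' ζ(c + c') = α a α a' β b ζ(a' b) β b' ζ(c+c') = α(a+a') β(b+b') ζ(c+c'+a' b);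
Heis.mul_a/b/c.
-/

namespace Cfsg.Agent.Lib.H90HsHh

open Cfsg.Agent.Lib.H90HsDefs Cfsg.Agent.Lib.Helper18F4
open scoped commutatorElement

variable {T : Type*} [Group T] {ρ x : MulAut T}

theorem heis_hom {F : Type*} [CommRing F] (α β ζ : F → T) (hα : ∀ s t, α (s + t) = α s * α t)
    (hβ : ∀ s t, β (s + t) = β s * β t) (hζ : ∀ s t, ζ (s + t) = ζ s * ζ t)
    (hz : ∀ s, ζ s ∈ Subgroup.center T) (hc : ∀ s t, β t * α s = α s * β t * ζ (s * t)) :
    ∃ φ : Heis F →* T, ∀ p, φ p = α p.a * β p.b * ζ p.c := by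
  have hzc : ∀ s (g : T), ζ s * g = g * ζ s := fun s g => ((Subgroup.mem_center_iff.1 (hz s)) g).symm
  refine ⟨MonoidHom.mk' (fun p => α p.a * β p.b * ζ p.c) ?_, fun p => rfl⟩
  intro p q
  rw [Heis.mul_a, Heis.mul_b, Heis.mul_c, hα, hβ, hζ, hζ]
  calc α p.a * α q.a * (β p.b * β q.b) * (ζ p.c * ζ q.c * ζ (q.a * p.b))
      = α p.a * (α q.a * β p.b * ζ (q.a * p.b)) * β q.b * (ζ p.c * ζ q.c) := by
        have e1 : ζ p.c * ζ q.c * ζ (q.a * p.b) = ζ (q.a * p.b) * (ζ p.c * ζ q.c) :=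
          (hzc _ _).symm
        rw [e1]
        have e2 : α p.a * (α q.a * β p.b * ζ (q.a * p.b)) * β q.b
            = α p.a * α q.a * (β p.b * β q.b) * ζ (q.a * p.b) := by
          simp only [mul_assoc]
          rw [hzc]
        rw [e2]
        simp only [mul_assoc]
    _ = α p.a * (β p.b * α q.a) * β q.b * (ζ p.c * ζ q.c) := by rw [← hc]
    _ = α p.a * β p.b * ζ p.c * (α q.a * β q.b * ζ q.c) := by
        have e3 : ζ p.c * (α q.a * β q.b * ζ q.c) = α q.a * β q.b * (ζ p.c * ζ q.c) := by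
          rw [hzc, mul_assoc, mul_assoc, mul_assoc, hzc (q.c)]
        rw [mul_assoc (α p.a * β p.b), e3]
        simp only [mul_assoc]

end Cfsg.Agent.Lib.H90HsHh
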