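import Mathlib
import Cfsg.Agent.Lib.H90HsDefs
import Cfsg.Agent.Lib.H90HsMf
import Cfsg.Agent.Lib.H90HsCm

set_option autoImplicit false
set_option linter.unusedSectionVars false

/-! Project 3157 (row S3157, 3u), piece In.  Plan and conventions: notes/helper90/hs/README.md.
`CR ρ`: |T| = 64, T non-abelian, ρ³ = 1, ρ fixed-point-free.  `CX ρ x`: moreover x² = 1, x ρ = ρ² x.  `M ρ a = closure {a, ρ a} ⊔ centre`.
Lemmas of the imported pieces H90Hs* may be used (their stubs are in notes/helper90/hs/).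

SKETCH. t2 ∉ centre: center_le_M.  t1 ∉ M ρ t2: else M_eq gives M ρ t1 = M ρ t2 ∋ t2.  t1 * t2 ∈ M ρ t1 ⇒ t2 ∈ M ρ t1 (mem_M, mul_mem, inv_mem); t1 * t2 ∈ M ρ t2 ⇒ t1 ∈ M ρ t2.
-/

namespace Cfsg.Agent.Lib.H90HsIn

open Cfsg.Agent.Lib.H90HsDefs Cfsg.Agent.Lib.Helper18F4
open scoped commutatorElement
open Cfsg.Agent.Lib.H90HsMf Cfsg.Agent.Lib.H90HsCm

variable {T : Type*} [Group T] {ρ x : MulAut T}

theorem indep (h : CR ρ) {t1 t2 : T} (h1 : t1 ∉ Subgroup.center T) (h2 : t2 ∉ M ρ t1) :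
    t2 ∉ Subgroup.center T ∧ t1 ∉ M ρ t2 ∧ t1 * t2 ∉ M ρ t1 ∧ t1 * t2 ∉ M ρ t2 := by
  have i1 : t2 ∉ Subgroup.center T := fun hz => h2 (center_le_M t1 hz)
  have i2 : t1 ∉ M ρ t2 := by
    intro hm
    have := M_eq h i1 hm h1
    apply h2
    rw [this]
    exact mem_M t2
  refine ⟨i1, i2, ?_, ?_⟩
  · intro hm
    apply h2
    have : t2 = t1⁻¹ * (t1 * t2) := by group
    rw [this]
    exact (M ρ _).mul_mem ((M ρ _).inv_mem (mem_M _)) hm
  · intro hm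
    apply i2
    have : t1 = (t1 * t2) * t2⁻¹ := by group
    rw [this]
    exact (M ρ _).mul_mem hm ((M ρ _).inv_mem (mem_M _))

end Cfsg.Agent.Lib.H90HsIn
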