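import Mathlib
import Cfsg.Agent.Lib.H90HsDefs
import Cfsg.Agent.Lib.H90HsMf
import Cfsg.Agent.Lib.H90HsCm
import Cfsg.Agent.Lib.H90HsFv
import Cfsg.Agent.Lib.H90HsIn

set_option autoImplicit false
set_option linter.unusedSectionVars false

/-! Project 3157 (row S3157, 3u), piece Hi.  Plan and conventions: notes/helper90/hs/README.md.
`CR ρ`: |T| = 64, T non-abelian, ρ³ = 1, ρ fixed-point-free.  `CX ρ x`: moreover x² = 1, x ρ = ρ² x.  `M ρ a = closure {a, ρ a} ⊔ centre`.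
Lemmas of the imported pieces H90Hs* may be used (their stubs are in notes/helper90/hs/).

SKETCH. a := t1 * ρ t2, b := t1 * ρ(ρ t2).  a central ⇒ ρ t2 = t1⁻¹ * a ∈ M ρ t1 ⇒ t2 ∈ M ρ t1 (M_inv').
b ∈ M ρ a ⇒ e := a⁻¹ * b = (ρ t2)⁻¹ * ρ(ρ t2) ∈ M ρ a; also e ∈ M ρ t2 (rho_mem_M, M_inv); e ∉ centre (fpV: else ρ t2 central, t2 central (center_inv twice + rho3), but t2 ∉ centre by indep).
M_eq twice: M ρ e = M ρ a and M ρ e = M ρ t2.  So a ∈ M ρ t2, t1 = a * (ρ t2)⁻¹ ∈ M ρ t2: contradiction with indep.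
-/

namespace Cfsg.Agent.Lib.H90HsHi

open Cfsg.Agent.Lib.H90HsDefs Cfsg.Agent.Lib.Helper18F4
open scoped commutatorElement
open Cfsg.Agent.Lib.H90HsMf Cfsg.Agent.Lib.H90HsCm Cfsg.Agent.Lib.H90HsFv Cfsg.Agent.Lib.H90HsIn

variable {T : Type*} [Group T] {ρ x : MulAut T}

theorem sing_indep (h : CR ρ) {t1 t2 : T} (h1 : t1 ∉ Subgroup.center T) (h2 : t2 ∉ M ρ t1) :
    t1 * ρ t2 ∉ Subgroup.center T ∧ t1 * ρ (ρ t2) ∉ M ρ (t1 * ρ t2) := by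
  obtain ⟨i1, i2, -, -⟩ := indep h h1 h2
  have ha : t1 * ρ t2 ∉ Subgroup.center T := by
    intro hz
    apply h2
    apply M_inv' h
    have : ρ t2 = t1⁻¹ * (t1 * ρ t2) := by group
    rw [this]
    exact (M ρ t1).mul_mem ((M ρ t1).inv_mem (mem_M t1)) (center_le_M t1 hz)
  refine ⟨ha, ?_⟩
  intro hb
  have he : (ρ t2)⁻¹ * ρ (ρ t2) ∈ M ρ (t1 * ρ t2) := by
    have : (ρ t2)⁻¹ * ρ (ρ t2) = (t1 * ρ t2)⁻¹ * (t1 * ρ (ρ t2)) := by group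
    rw [this]
    exact (M ρ _).mul_mem ((M ρ _).inv_mem (mem_M _)) hb
  have he2 : (ρ t2)⁻¹ * ρ (ρ t2) ∈ M ρ t2 :=
    (M ρ _).mul_mem ((M ρ _).inv_mem (rho_mem_M _)) (M_inv h _ _ (rho_mem_M _))
  have he' : (ρ t2)⁻¹ * ρ (ρ t2) ∉ Subgroup.center T := by
    intro hz
    have h3 := fpV h hz
    have h4 := center_inv (ρ := ρ) _ (center_inv (ρ := ρ) _ h3)
    rw [h.rho3] at h4
    exact i1 h4
  have e1 := M_eq h ha he he'
  have e2 := M_eq h i1 he2 he'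
  apply i2
  have : t1 = (t1 * ρ t2) * (ρ t2)⁻¹ := by group
  rw [this]
  refine (M ρ _).mul_mem ?_ ((M ρ _).inv_mem (rho_mem_M _))
  rw [← e2, e1]
  exact mem_M _

end Cfsg.Agent.Lib.H90HsHi
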