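import Mathlib
import Cfsg.Agent.Lib.H90HsDefs
import Cfsg.Agent.Lib.H90HsP3
import Cfsg.Agent.Lib.H90HsCl
import Cfsg.Agent.Lib.H90HsZs
import Cfsg.Agent.Lib.H90HsId
import Cfsg.Agent.Lib.H90HsSq
import Cfsg.Agent.Lib.H90HsTw
import Cfsg.Agent.Lib.H90HsMf

set_option autoImplicit false
set_option linter.unusedSectionVars false

/-! Project 3157 (row S3157, 3u), piece Hs.  Plan and conventions: notes/helper90/hs/README.md.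
`CR ρ`: |T| = 64, T non-abelian, ρ³ = 1, ρ fixed-point-free.  `CX ρ x`: moreover x² = 1, x ρ = ρ² x.  `M ρ a = closure {a, ρ a} ⊔ centre`.
Lemmas of the imported pieces H90Hs* may be used (their stubs are in notes/helper90/hs/).

SKETCH. mul_sq: (s*t)*(s*t) = s*s*(t*t)*⁅t,s⁆.  (t1 * ρ t2)² = z0 * ρ z0 * ⁅ρ t2,t1⁆, ⁅ρ t2,t1⁆ = ⁅t1,ρ t2⁆ (comm_symm) = ρ(ρ z0) (twist); prod3 z0.
(t1 * ρ(ρ t2))² = z0 * ρ(ρ z0) * ⁅t1,ρ(ρ t2)⁆, ⁅t1,ρ(ρ t2)⁆ = ρ(ρ ⁅t1,ρ t2⁆) = ρ(ρ(ρ(ρ z0))) = ρ z0; z0, ρ z0, ρ(ρ z0) commute (central: z0 = ⁅t1,t2⁆, class2, center_inv).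
-/

namespace Cfsg.Agent.Lib.H90HsHs

open Cfsg.Agent.Lib.H90HsDefs Cfsg.Agent.Lib.Helper18F4
open scoped commutatorElement
open Cfsg.Agent.Lib.H90HsP3 Cfsg.Agent.Lib.H90HsCl Cfsg.Agent.Lib.H90HsZs Cfsg.Agent.Lib.H90HsId Cfsg.Agent.Lib.H90HsSq Cfsg.Agent.Lib.H90HsTw

variable {T : Type*} [Group T] {ρ x : MulAut T}

theorem sing_sq (h : CR ρ) {t1 t2 z0 : T} (h1 : t1 * t1 = z0) (h2 : t2 * t2 = z0) (h3 : ⁅t1, t2⁆ = z0) :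
    (t1 * ρ t2) * (t1 * ρ t2) = 1 ∧ (t1 * ρ (ρ t2)) * (t1 * ρ (ρ t2)) = 1 := by
  have hc := class2 h
  have hz0 : z0 ∈ Subgroup.center T := by rw [← h3]; exact hc t1 t2
  have hρz : ρ z0 ∈ Subgroup.center T := Cfsg.Agent.Lib.H90HsMf.center_inv z0 hz0
  constructor
  · rw [mul_sq hc, h1, ← map_mul, h2, comm_symm h (ρ t2) t1, twist h t2 t1, h3]
    exact prod3 h z0
  · rw [mul_sq hc, h1, ← map_mul, ← map_mul, h2, comm_symm h (ρ (ρ t2)) t1, twist h (ρ t2) t1,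
      twist h t2 t1, h3, h.rho3 (ρ z0), mul_assoc, Subgroup.mem_center_iff.1 hρz (ρ (ρ z0)),
      ← mul_assoc]
    exact prod3 h z0

end Cfsg.Agent.Lib.H90HsHs
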