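import Mathlib
import Cfsg.Agent.Lib.H90HsDefs
import Cfsg.Agent.Lib.H90HsInv
import Cfsg.Agent.Lib.H90HsMf
import Cfsg.Agent.Lib.H90HsCz
import Cfsg.Agent.Lib.H90HsCm
import Cfsg.Agent.Lib.H90HsTw

set_option autoImplicit false
set_option linter.unusedSectionVars false

/-! Project 3157 (row S3157, 3u), piece Nd.  Plan and conventions: notes/helper90/hs/README.md.
`CR ρ`: |T| = 64, T non-abelian, ρ³ = 1, ρ fixed-point-free.  `CX ρ x`: moreover x² = 1, x ρ = ρ² x.  `M ρ a = closure {a, ρ a} ⊔ centre`.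
Lemmas of the imported pieces H90Hs* may be used (their stubs are in notes/helper90/hs/).

SKETCH. Suppose ⁅b,a⁆ = 1.  Then ⁅b,ρ a⁆ = ρ(ρ 1) = 1 (twist).  So a, ρ a and the centre lie in K := Subgroup.centralizer {b}, i.e. M ρ a ≤ K; also M ρ b ≤ K (M_comm, mem_M).
H := M ρ a ⊔ M ρ b ≤ K is ρ-invariant (sup induction / map_sup, M_inv) and properly contains M ρ a (b ∈ H), so card H > 16, card H = 64 (card_inv), H = ⊤, K = ⊤, b central,
b ∈ M ρ a (center_le_M): contradiction.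
-/

namespace Cfsg.Agent.Lib.H90HsNd

open Cfsg.Agent.Lib.H90HsDefs Cfsg.Agent.Lib.Helper18F4
open scoped commutatorElement
open Cfsg.Agent.Lib.H90HsInv Cfsg.Agent.Lib.H90HsMf Cfsg.Agent.Lib.H90HsCz Cfsg.Agent.Lib.H90HsCm Cfsg.Agent.Lib.H90HsTw

variable {T : Type*} [Group T] {ρ x : MulAut T}

theorem nondeg (h : CR ρ) {a b : T} (ha : a ∉ Subgroup.center T) (hb : b ∉ M ρ a) : ⁅b, a⁆ ≠ 1 := by
  intro hba
  have hfin : Finite T := Nat.finite_of_card_ne_zero (by rw [h.card]; norm_num)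
  have hba' : ⁅b, ρ a⁆ = 1 := by rw [twist h a b, hba, map_one, map_one]
  have c1 : b * a = a * b := commutatorElement_eq_one_iff_mul_comm.1 hba
  have c2 : b * ρ a = ρ a * b := commutatorElement_eq_one_iff_mul_comm.1 hba'
  have hK1 : M ρ a ≤ Subgroup.centralizer {b} := by
    refine sup_le ((Subgroup.closure_le _).2 ?_) (Subgroup.center_le_centralizer _)
    intro t ht
    rcases ht with rfl | ht
    · exact Subgroup.mem_centralizer_singleton_iff.2 c1.symm
    · rw [Set.mem_singleton_iff] at ht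
      subst ht
      exact Subgroup.mem_centralizer_singleton_iff.2 c2.symm
  have hK2 : M ρ b ≤ Subgroup.centralizer {b} := by
    intro t ht
    exact Subgroup.mem_centralizer_singleton_iff.2 (M_comm h b t ht b (mem_M b))
  have hHinv : ∀ t ∈ M ρ a ⊔ M ρ b, ρ t ∈ M ρ a ⊔ M ρ b := by
    have : M ρ a ⊔ M ρ b ≤ (M ρ a ⊔ M ρ b).comap ρ.toMonoidHom := by
      refine sup_le ?_ ?_
      · intro t ht
        exact (le_sup_left : M ρ a ≤ M ρ a ⊔ M ρ b) (M_inv h a t ht)
      · intro t ht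
        exact (le_sup_right : M ρ b ≤ M ρ a ⊔ M ρ b) (M_inv h b t ht)
    intro t ht
    exact this ht
  have hlt : M ρ a < M ρ a ⊔ M ρ b := by
    refine lt_of_le_of_ne le_sup_left ?_
    intro he
    apply hb
    rw [he]
    exact (le_sup_right : M ρ b ≤ M ρ a ⊔ M ρ b) (mem_M b)
  have hcl : Nat.card (M ρ a) < Nat.card ↥(M ρ a ⊔ M ρ b) := by
    have := Set.ncard_lt_ncard (s := (M ρ a : Set T)) (t := ((M ρ a ⊔ M ρ b : Subgroup T) : Set T))
      (SetLike.coe_ssubset_coe.2 hlt) (Set.toFinite _)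
    rw [← Nat.card_coe_set_eq, ← Nat.card_coe_set_eq] at this
    exact this
  rw [card_M h ha] at hcl
  have h64 : Nat.card ↥(M ρ a ⊔ M ρ b) = Nat.card T := by
    rw [h.card]
    rcases card_inv h _ hHinv with h1 | h1 | h1 | h1 <;> omega
  have htop : M ρ a ⊔ M ρ b = ⊤ := Subgroup.eq_top_of_card_eq _ h64
  have hKtop : Subgroup.centralizer {b} = (⊤ : Subgroup T) := by
    rw [eq_top_iff, ← htop]
    exact sup_le hK1 hK2
  apply hb
  apply center_le_M a
  rw [Subgroup.mem_center_iff]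
  intro g
  have : g ∈ Subgroup.centralizer {b} := by rw [hKtop]; trivial
  exact Subgroup.mem_centralizer_singleton_iff.1 this

end Cfsg.Agent.Lib.H90HsNd
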