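import Mathlib
import Cfsg.Agent.Lib.H90HsDefs
import Cfsg.Agent.Lib.H90HsMf
import Cfsg.Agent.Lib.H90HsCl
import Cfsg.Agent.Lib.H90HsNd

set_option autoImplicit false
set_option linter.unusedSectionVars false

/-! Project 3157 (row S3157, 3u), piece Ji.  Plan and conventions: notes/helper90/hs/README.md.
`CR ρ`: |T| = 64, T non-abelian, ρ³ = 1, ρ fixed-point-free.  `CX ρ x`: moreover x² = 1, x ρ = ρ² x.  `M ρ a = closure {a, ρ a} ⊔ centre`.
Lemmas of the imported pieces H90Hs* may be used (their stubs are in notes/helper90/hs/).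

SKETCH. al ρ a s ∈ M ρ a for all s (1, mem_M, rho_mem_M, M_inv); ze ρ z u is central (class2, center_inv).  So al ρ b t ∈ M ρ a; if t ≠ 0 it is b, ρ b or ρ(ρ b), so b ∈ M ρ a (M_inv'): contradiction; t = 0.
Then al ρ a s is central; if s ≠ 0 then a is central (ρ a central ⇒ a = ρ(ρ(ρ a)) central): contradiction.  Then ze ρ z u = 1 with z ≠ 1 (nondeg): u = 0.
-/

namespace Cfsg.Agent.Lib.H90HsJi

open Cfsg.Agent.Lib.H90HsDefs Cfsg.Agent.Lib.Helper18F4
open scoped commutatorElement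
open Cfsg.Agent.Lib.H90HsMf Cfsg.Agent.Lib.H90HsCl Cfsg.Agent.Lib.H90HsNd

variable {T : Type*} [Group T] {ρ x : MulAut T}

theorem al_mem (h : CR ρ) (c : T) (s : F4c) : al ρ c s ∈ M ρ c := by
  obtain ⟨sa, sb⟩ := s
  cases sa <;> cases sb
  · exact one_mem _
  · exact rho_mem_M c
  · exact mem_M c
  · exact M_inv h c _ (rho_mem_M c)

theorem ze_mem {z : T} (hz : z ∈ Subgroup.center T) (u : F4c) : ze ρ z u ∈ Subgroup.center T := by
  obtain ⟨sa, sb⟩ := u
  cases sa <;> cases sb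
  · exact one_mem _
  · exact center_inv _ (center_inv _ hz)
  · exact hz
  · exact center_inv _ hz

theorem coord_inj (h : CR ρ) {a b : T} (ha : a ∉ Subgroup.center T) (hb : b ∉ M ρ a) (s t u : F4c)
    (he : al ρ a s * al ρ b t * ze ρ ⁅b, a⁆ u = 1) : s = 0 ∧ t = 0 ∧ u = 0 := by
  have hzc : ze ρ ⁅b, a⁆ u ∈ Subgroup.center T := ze_mem (class2 h b a) u
  have hbt : al ρ b t ∈ M ρ a := by
    have h1 : al ρ b t = (al ρ a s)⁻¹ * (ze ρ ⁅b, a⁆ u)⁻¹ := by
      calc al ρ b t = (al ρ a s)⁻¹ * (al ρ a s * al ρ b t * ze ρ ⁅b, a⁆ u) * (ze ρ ⁅b, a⁆ u)⁻¹ := by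
            group
        _ = _ := by rw [he, mul_one]
    rw [h1]
    exact mul_mem (inv_mem (al_mem h a s)) (inv_mem (center_le_M a hzc))
  have ht : t = 0 := by
    obtain ⟨ta, tb⟩ := t
    cases ta <;> cases tb
    · rfl
    · exact absurd (M_inv' h a b hbt) hb
    · exact absurd hbt hb
    · exact absurd (M_inv' h a b (M_inv' h a _ hbt)) hb
  subst ht
  have he2 : al ρ a s * ze ρ ⁅b, a⁆ u = 1 := by
    have h1 : al ρ b (0 : F4c) = 1 := rfl
    rw [h1, mul_one] at he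
    exact he
  have has : al ρ a s ∈ Subgroup.center T := by
    rw [eq_inv_of_mul_eq_one_left he2]
    exact inv_mem hzc
  have hs : s = 0 := by
    obtain ⟨ta, tb⟩ := s
    cases ta <;> cases tb
    · rfl
    · exfalso
      apply ha
      have h1 := center_inv (ρ := ρ) _ (center_inv (ρ := ρ) _ has)
      have h2 : ρ (ρ (ρ a)) ∈ Subgroup.center T := h1
      rwa [h.rho3] at h2
    · exact absurd has ha
    · exfalso
      apply ha
      have h1 := center_inv (ρ := ρ) _ has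
      have h2 : ρ (ρ (ρ a)) ∈ Subgroup.center T := h1
      rwa [h.rho3] at h2
  subst hs
  have he3 : ze ρ ⁅b, a⁆ u = 1 := by
    have h1 : al ρ a (0 : F4c) = 1 := rfl
    rw [h1, one_mul] at he2
    exact he2
  have hnd := nondeg h ha hb
  refine ⟨rfl, rfl, ?_⟩
  obtain ⟨ta, tb⟩ := u
  cases ta <;> cases tb
  · rfl
  · exfalso
    apply hnd
    have h2 : ρ (ρ ⁅b, a⁆) = 1 := he3
    exact (map_eq_one_iff ρ ρ.injective).1 ((map_eq_one_iff ρ ρ.injective).1 h2)
  · exact absurd he3 hnd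
  · exfalso
    apply hnd
    have h2 : ρ ⁅b, a⁆ = 1 := he3
    exact (map_eq_one_iff ρ ρ.injective).1 h2

end Cfsg.Agent.Lib.H90HsJi
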