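import Mathlib
import Cfsg.Agent.Lib.H90HsDefs

set_option autoImplicit false
set_option linter.unusedSectionVars false

/-! Project 3157 (row S3157, 3u), piece Ka.  Plan and conventions: notes/helper90/hs/README.md.
`CR ρ`: |T| = 64, T non-abelian, ρ³ = 1, ρ fixed-point-free.  `CX ρ x`: moreover x² = 1, x ρ = ρ² x.  `M ρ a = closure {a, ρ a} ⊔ centre`.
Lemmas of the imported pieces H90Hs* may be used (their stubs are in notes/helper90/hs/).

SKETCH. 16 cases: rcases s with ⟨_ | _, _ | _⟩ <;> rcases t with ⟨_ | _, _ | _⟩; the sum in F4c reduces by `show co3 a b c ⟨_, _⟩ = _` / `rfl` / `decide`; then group computations from the four relations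
(c = a * b = b * a, so b * c = a, c * b = a, a * c = b, c * a = b, c * c = 1).
-/

namespace Cfsg.Agent.Lib.H90HsKa

open Cfsg.Agent.Lib.H90HsDefs Cfsg.Agent.Lib.Helper18F4
open scoped commutatorElement

variable {T : Type*} [Group T] {ρ x : MulAut T}

theorem co3_add {a b c : T} (ha : a * a = 1) (hb : b * b = 1) (hab : a * b = c) (hba : b * a = c)
    (s t : F4c) : co3 a b c (s + t) = co3 a b c s * co3 a b c t := by
  have hc : c * c = 1 := by
    calc c * c = (a * b) * (b * a) := by rw [hab, hba]
      _ = a * (b * b) * a := by group
      _ = 1 := by rw [hb, mul_one, ha]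
  have hbc : b * c = a := by
    calc b * c = b * (b * a) := by rw [hba]
      _ = (b * b) * a := by group
      _ = a := by rw [hb, one_mul]
  have hcb : c * b = a := by
    calc c * b = (a * b) * b := by rw [hab]
      _ = a * (b * b) := by group
      _ = a := by rw [hb, mul_one]
  have hac : a * c = b := by
    calc a * c = a * (a * b) := by rw [hab]
      _ = (a * a) * b := by group
      _ = b := by rw [ha, one_mul]
  have hca : c * a = b := by
    calc c * a = (b * a) * a := by rw [hba]
      _ = b * (a * a) := by group
      _ = b := by rw [ha, mul_one]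
  rcases s with ⟨_ | _, _ | _⟩ <;> rcases t with ⟨_ | _, _ | _⟩
  · exact (one_mul _).symm
  · exact (one_mul _).symm
  · exact (one_mul _).symm
  · exact (one_mul _).symm
  · exact (mul_one _).symm
  · exact hb.symm
  · exact hba.symm
  · exact hbc.symm
  · exact (mul_one _).symm
  · exact hab.symm
  · exact ha.symm
  · exact hac.symm
  · exact (mul_one _).symm
  · exact hcb.symm
  · exact hca.symm
  · exact hc.symm

theorem co3_zero (a b c : T) : co3 a b c 0 = 1 := by
  rfl

end Cfsg.Agent.Lib.H90HsKa
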