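import Mathlib
import Cfsg.Agent.Lib.H90HsDefs
import Cfsg.Agent.Lib.H90HsP3
import Cfsg.Agent.Lib.H90HsMf
import Cfsg.Agent.Lib.H90HsCl
import Cfsg.Agent.Lib.H90HsZs
import Cfsg.Agent.Lib.H90HsKa
import Cfsg.Agent.Lib.H90HsCr
import Cfsg.Agent.Lib.H90HsHh
import Cfsg.Agent.Lib.H90HsJi
import Cfsg.Agent.Lib.H90HsCh

set_option autoImplicit false
set_option linter.unusedSectionVars false

/-! Project 3157 (row S3157, 3u), piece Is.  Plan and conventions: notes/helper90/hs/README.md.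
`CR ρ`: |T| = 64, T non-abelian, ρ³ = 1, ρ fixed-point-free.  `CX ρ x`: moreover x² = 1, x ρ = ρ² x.  `M ρ a = closure {a, ρ a} ⊔ centre`.
Lemmas of the imported pieces H90Hs* may be used (their stubs are in notes/helper90/hs/).

SKETCH. α := al ρ a, β := al ρ b, ζ := ze ρ ⁅b,a⁆.  Additivity: co3_add; for al ρ a: a*a = 1, ρ a * ρ a = ρ (a*a) = 1, a * ρ a = ρ(ρ a) (rho2_eq: = (a * ρ a)⁻¹, and (a * ρ a)² = 1 by comm_rho), ρ a * a = the same.
For ze ρ z (z central: center_sq, z * ρ(ρ z) = ρ z from prod3).  heis_hom with comm_rel gives φ; φ is injective (injective_iff_map_eq_one, coord_inj, Heis.ext),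
hence bijective (card_heis = 64 = h.card; Function.Injective.bijective_of_nat_card_le).  MulEquiv.ofBijective, symm.
-/

namespace Cfsg.Agent.Lib.H90HsIs

open Cfsg.Agent.Lib.H90HsDefs Cfsg.Agent.Lib.Helper18F4
open scoped commutatorElement
open Cfsg.Agent.Lib.H90HsP3 Cfsg.Agent.Lib.H90HsMf Cfsg.Agent.Lib.H90HsCl Cfsg.Agent.Lib.H90HsZs Cfsg.Agent.Lib.H90HsKa Cfsg.Agent.Lib.H90HsCr Cfsg.Agent.Lib.H90HsHh Cfsg.Agent.Lib.H90HsJi Cfsg.Agent.Lib.H90HsCh

variable {T : Type*} [Group T] {ρ x : MulAut T}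

theorem al_add (h : CR ρ) {a : T} (ha2 : a * a = 1) (s t : F4c) :
    al ρ a (s + t) = al ρ a s * al ρ a t := by
  have h1 : ρ a * ρ a = 1 := by rw [← map_mul, ha2, map_one]
  have hc := comm_rho h a
  have h2 : (a * ρ a) * (a * ρ a) = 1 := by
    calc (a * ρ a) * (a * ρ a) = a * (ρ a * a) * ρ a := by group
      _ = a * (a * ρ a) * ρ a := by rw [hc]
      _ = (a * a) * (ρ a * ρ a) := by group
      _ = 1 := by rw [ha2, h1, mul_one]
  have h3 : a * ρ a = ρ (ρ a) := by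
    rw [rho2_eq h a]
    exact eq_inv_of_mul_eq_one_left h2
  exact co3_add ha2 h1 h3 (by rw [← hc]; exact h3) s t

theorem ze_add (h : CR ρ) {z : T} (hz : z ∈ Subgroup.center T) (s t : F4c) :
    ze ρ z (s + t) = ze ρ z s * ze ρ z t := by
  have hz2 := center_sq h z hz
  have h1 : ρ (ρ z) * ρ (ρ z) = 1 := by rw [← map_mul, ← map_mul, hz2, map_one, map_one]
  have hr : ρ z * ρ z = 1 := by rw [← map_mul, hz2, map_one]
  have hp := prod3 h z
  have hcz : ∀ g : T, g * z = z * g := fun g => Subgroup.mem_center_iff.1 hz g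
  have h3 : z * ρ (ρ z) = ρ z := by
    have h4 : z * ρ z * ρ (ρ z) = 1 := hp
    have h5 : ρ z * (z * ρ (ρ z)) = 1 := by
      calc ρ z * (z * ρ (ρ z)) = (ρ z * z) * ρ (ρ z) := by group
        _ = z * ρ z * ρ (ρ z) := by rw [hcz]
        _ = 1 := h4
    calc z * ρ (ρ z) = (ρ z * ρ z) * (z * ρ (ρ z)) := by rw [hr, one_mul]
      _ = ρ z * (ρ z * (z * ρ (ρ z))) := by group
      _ = ρ z := by rw [h5, mul_one]
  exact co3_add hz2 h1 h3 (by rw [hcz]; exact h3) s t

theorem iso_heis (h : CR ρ) {a b : T} (ha : a ∉ Subgroup.center T) (hb : b ∉ M ρ a) (ha2 : a * a = 1)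
    (hb2 : b * b = 1) : Nonempty (T ≃* Heis F4c) := by
  have hfin : Finite T := Nat.finite_of_card_ne_zero (by rw [h.card]; norm_num)
  have hz : ⁅b, a⁆ ∈ Subgroup.center T := class2 h b a
  obtain ⟨φ, hφ⟩ := heis_hom (F := F4c) (al ρ a) (al ρ b) (ze ρ ⁅b, a⁆) (al_add h ha2) (al_add h hb2)
    (ze_add h hz) (fun s => ze_mem hz s) (fun s t => comm_rel h a b s t)
  have hinj : Function.Injective φ := by
    rw [injective_iff_map_eq_one]
    intro p hp
    rw [hφ] at hp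
    obtain ⟨h1, h2, h3⟩ := coord_inj h ha hb _ _ _ hp
    exact Heis.ext h1 h2 h3
  have hbij : Function.Bijective φ :=
    Function.Injective.bijective_of_nat_card_le hinj (by rw [h.card, card_heis])
  exact ⟨(MulEquiv.ofBijective φ hbij).symm⟩

end Cfsg.Agent.Lib.H90HsIs
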