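import Mathlib
import Cfsg.Agent.Lib.H90HsDefs
import Cfsg.Agent.Lib.Helper54Ord168b
import Cfsg.Agent.Lib.H32OcA5b

set_option autoImplicit false
set_option linter.unusedSectionVars false

/-! Project 3157 (row S3157, 3u), piece O8.  Plan and conventions: notes/helper90/hs/README.md.
`CR ρ`: |T| = 64, T non-abelian, ρ³ = 1, ρ fixed-point-free.  `CX ρ x`: moreover x² = 1, x ρ = ρ² x.  `M ρ a = closure {a, ρ a} ⊔ centre`.
Lemmas of the imported pieces H90Hs* may be used (their stubs are in notes/helper90/hs/).

SKETCH. If K has two distinct involutions: Helper54Ord168b.dihedral_of_two_involutions (needs ¬ IsMulCommutative K).  Otherwise K has exactly one involution j (Cauchy).  Some c has c*c ≠ 1 (else K commutative), orderOf c ∣ 8,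
≠ 1, 2, 8 (cyclic ⇒ commutative) so orderOf c = 4, c*c = j.  Pick y ∉ zpowers c (card 4 < 8): orderOf y = 4 likewise (order 2 ⇒ y = j = c*c ∈ zpowers c), y*y = j = c*c.  zpowers c has index 2 so is normal;
y*c*y⁻¹ ∈ zpowers c of order 4 so is c or c⁻¹; if c then y commutes with c and K = zpowers c ⊔ zpowers y is commutative.  H32OcA5b.q8_of_gens.
-/

namespace Cfsg.Agent.Lib.H90HsO8

open Cfsg.Agent.Lib.H90HsDefs Cfsg.Agent.Lib.Helper18F4
open scoped commutatorElement

variable {T : Type*} [Group T] {ρ x : MulAut T}

theorem order8 {K : Type*} [Group K] (hK : Nat.card K = 8) (hna : ∃ s t : K, s * t ≠ t * s) :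
    Nonempty (K ≃* DihedralGroup 4) ∨ Nonempty (K ≃* QuaternionGroup 2) := by
  classical
  have : Finite K := Nat.finite_of_card_ne_zero (by rw [hK]; norm_num)
  obtain ⟨s, t, hst⟩ := hna
  have hnc : ¬ IsMulCommutative K := fun hcm => hst (hcm.is_comm.comm s t)
  by_cases h2 : ∃ u z : K, orderOf u = 2 ∧ orderOf z = 2 ∧ u ≠ z
  · obtain ⟨u, z, hu, hz, huz⟩ := h2
    exact Or.inl (Cfsg.Agent.Lib.Helper54Ord168b.dihedral_of_two_involutions hK hnc u z hu hz huz)
  right
  push Not at h2
  have ho4 : ∀ g : K, g * g ≠ 1 → orderOf g = 4 := by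
    intro g hg
    have hd : orderOf g ∣ 8 := by rw [← hK]; exact orderOf_dvd_natCard g
    have hmem : orderOf g ∈ Nat.divisors 8 := Nat.mem_divisors.2 ⟨hd, by norm_num⟩
    have hdiv : Nat.divisors 8 = {1, 2, 4, 8} := by decide
    rw [hdiv] at hmem
    simp only [Finset.mem_insert, Finset.mem_singleton] at hmem
    rcases hmem with h1 | h1 | h1 | h1
    · rw [orderOf_eq_one_iff] at h1
      exact absurd (by rw [h1, one_mul]) hg
    · have := pow_orderOf_eq_one g
      rw [h1, pow_two] at this
      exact absurd this hg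
    · exact h1
    · exfalso
      have hcyc : IsCyclic K := isCyclic_of_orderOf_eq_card g (by rw [h1, hK])
      exact hst (IsCyclic.commGroup.mul_comm s t)
  have hsq2 : ∀ g : K, g * g ≠ 1 → orderOf (g * g) = 2 := by
    intro g hg
    apply orderOf_eq_prime
    · have := pow_orderOf_eq_one g
      rw [ho4 g hg] at this
      rw [← this]
      simp only [pow_succ, pow_zero, one_mul, mul_assoc]
    · exact hg
  obtain ⟨c, hc⟩ : ∃ c : K, c * c ≠ 1 := by
    by_contra hcon
    push Not at hcon
    apply hst
    have h1 := hcon (s * t)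
    have h3 : s * t = (s * t)⁻¹ := eq_inv_of_mul_eq_one_left h1
    rw [h3, mul_inv_rev, inv_eq_of_mul_eq_one_left (hcon s), inv_eq_of_mul_eq_one_left (hcon t)]
  have hc4 := ho4 c hc
  have hcard : Nat.card (Subgroup.zpowers c) = 4 := by rw [Nat.card_zpowers, hc4]
  obtain ⟨y, hy⟩ : ∃ y : K, y ∉ Subgroup.zpowers c := by
    by_contra hcon
    push Not at hcon
    have : Subgroup.zpowers c = ⊤ := by
      rw [eq_top_iff]
      exact fun g _ => hcon g
    rw [this, Subgroup.card_top, hK] at hcard
    omega
  have hccmem : c * c ∈ Subgroup.zpowers c :=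
    (Subgroup.zpowers c).mul_mem (Subgroup.mem_zpowers c) (Subgroup.mem_zpowers c)
  have hyy : y * y ≠ 1 := by
    intro h1
    by_cases hy1 : y = 1
    · exact hy (hy1 ▸ (Subgroup.zpowers c).one_mem)
    · have : orderOf y = 2 := orderOf_eq_prime (by rw [pow_two]; exact h1) hy1
      have := h2 y (c * c) this (hsq2 c hc)
      exact hy (this ▸ hccmem)
  have hyc : y * y = c * c := h2 _ _ (hsq2 y hyy) (hsq2 c hc)
  have hidx : (Subgroup.zpowers c).index = 2 := by
    have := Subgroup.index_mul_card (Subgroup.zpowers c)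
    rw [hcard, hK] at this
    omega
  have hnorm : (Subgroup.zpowers c).Normal := Subgroup.normal_of_index_eq_two hidx
  have hgen : ∀ H : Subgroup K, c ∈ H → y ∈ H → H = ⊤ := by
    intro H hcH hyH
    have hle : Subgroup.zpowers c ≤ H := by
      rw [Subgroup.zpowers_le]; exact hcH
    have d1 : 4 ∣ Nat.card H := by rw [← hcard]; exact Subgroup.card_dvd_of_le hle
    have d2 : Nat.card H ∣ 8 := by rw [← hK]; exact Subgroup.card_subgroup_dvd_card H
    have hne : Nat.card H ≠ 4 := by
      intro h4
      have := Subgroup.eq_of_le_of_card_ge hle (by rw [h4, hcard])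
      exact hy (this ▸ hyH)
    apply Subgroup.eq_top_of_card_eq
    rw [hK]
    have hmem : Nat.card H ∈ Nat.divisors 8 := Nat.mem_divisors.2 ⟨d2, by norm_num⟩
    have hdiv : Nat.divisors 8 = {1, 2, 4, 8} := by decide
    rw [hdiv] at hmem
    simp only [Finset.mem_insert, Finset.mem_singleton] at hmem
    rcases hmem with h1 | h1 | h1 | h1 <;> omega
  have hconj := hnorm.conj_mem c (Subgroup.mem_zpowers c) y
  rw [← mem_powers_iff_mem_zpowers] at hconj
  obtain ⟨k, hk⟩ := hconj
  have hk' : c ^ (k % 4) = y * c * y⁻¹ := by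
    rw [← hk, ← hc4, pow_mod_orderOf]
  have hc44 : c ^ 4 = 1 := by rw [← hc4]; exact pow_orderOf_eq_one c
  have hlt : k % 4 < 4 := Nat.mod_lt _ (by norm_num)
  have hxy : y * c * y⁻¹ = c⁻¹ := by
    generalize k % 4 = e at *
    interval_cases e
    · exfalso
      rw [pow_zero] at hk'
      have : c = 1 := by
        have h3 : y⁻¹ * (y * c * y⁻¹) * y = c := by group
        rw [← h3, ← hk']; group
      exact hc (by rw [this, one_mul])
    · exfalso
      rw [pow_one] at hk'
      have hcy : y * c = c * y := by
        have h3 : y * c = (y * c * y⁻¹) * y := by group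
        rw [h3, ← hk']
      have hcC : Subgroup.centralizer {c} = ⊤ := hgen _
        (by rw [Subgroup.mem_centralizer_singleton_iff])
        (by rw [Subgroup.mem_centralizer_singleton_iff]; exact hcy)
      have hyC : Subgroup.centralizer {y} = ⊤ := hgen _
        (by rw [Subgroup.mem_centralizer_singleton_iff]; exact hcy.symm)
        (by rw [Subgroup.mem_centralizer_singleton_iff])
      have hcen : Subgroup.center K = ⊤ := hgen _
        (by
          rw [Subgroup.mem_center_iff]
          intro g
          have : g ∈ Subgroup.centralizer {c} := by rw [hcC]; exact Subgroup.mem_top g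
          rw [Subgroup.mem_centralizer_singleton_iff] at this
          exact this)
        (by
          rw [Subgroup.mem_center_iff]
          intro g
          have : g ∈ Subgroup.centralizer {y} := by rw [hyC]; exact Subgroup.mem_top g
          rw [Subgroup.mem_centralizer_singleton_iff] at this
          exact this)
      have : t ∈ Subgroup.center K := by rw [hcen]; exact Subgroup.mem_top t
      exact hst (Subgroup.mem_center_iff.1 this s)
    · exfalso
      have h3 : (y * c * y⁻¹) * (y * c * y⁻¹) = 1 := by
        rw [← hk', ← pow_add]; exact hc44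
      have h4 : c * c = y⁻¹ * ((y * c * y⁻¹) * (y * c * y⁻¹)) * y := by group
      rw [h3] at h4
      exact hc (by rw [h4]; group)
    · rw [← hk']
      apply eq_inv_of_mul_eq_one_left
      rw [← pow_succ]; exact hc44
  exact Cfsg.Agent.Lib.H32OcA5b.q8_of_gens hK hc4 hyc hxy hy

end Cfsg.Agent.Lib.H90HsO8
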