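import Mathlib
import Cfsg.Agent.Lib.H90HsDefs
import Cfsg.Agent.Lib.H90HsMf
import Cfsg.Agent.Lib.H90HsCz
import Cfsg.Agent.Lib.H90HsCm
import Cfsg.Agent.Lib.H90HsIj
import Cfsg.Agent.Lib.H90HsGe

set_option autoImplicit false
set_option linter.unusedSectionVars false

/-! Project 3157 (row S3157, 3u), piece Pr.  Plan and conventions: notes/helper90/hs/README.md.
`CR ρ`: |T| = 64, T non-abelian, ρ³ = 1, ρ fixed-point-free.  `CX ρ x`: moreover x² = 1, x ρ = ρ² x.  `M ρ a = closure {a, ρ a} ⊔ centre`.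
Lemmas of the imported pieces H90Hs* may be used (their stubs are in notes/helper90/hs/).

SKETCH. t1: if Fx x ≤ centre then 8 ≤ 4 (Subgroup.card_le_of_le, card_center).  t2: if Fx x ≤ M ρ t1 then (c1,c2) ↦ c1 * ρ c2 is an injection (inj_CC) Fx x × Fx x → M ρ t1 (M_inv), so 64 ≤ 16 (card_M).
-/

namespace Cfsg.Agent.Lib.H90HsPr

open Cfsg.Agent.Lib.H90HsDefs Cfsg.Agent.Lib.Helper18F4
open scoped commutatorElement
open Cfsg.Agent.Lib.H90HsMf Cfsg.Agent.Lib.H90HsCz Cfsg.Agent.Lib.H90HsCm Cfsg.Agent.Lib.H90HsIj Cfsg.Agent.Lib.H90HsGe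

variable {T : Type*} [Group T] {ρ x : MulAut T}

theorem exists_pair (h : CX ρ x) : ∃ t1 t2 : T, x t1 = t1 ∧ x t2 = t2 ∧ t1 ∉ Subgroup.center T ∧
    t2 ∉ M ρ t1 := by
  have hfin : Finite T := Nat.finite_of_card_ne_zero (by rw [h.card]; norm_num)
  have h8 := card_fix h
  obtain ⟨t1, ht1, ht1c⟩ : ∃ t1, x t1 = t1 ∧ t1 ∉ Subgroup.center T := by
    by_contra hcon
    push Not at hcon
    have hle : Fx x ≤ Subgroup.center T := fun t ht => hcon t ht
    have := Subgroup.card_le_of_le hle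
    rw [h8, card_center h.toCR] at this
    omega
  obtain ⟨t2, ht2, ht2M⟩ : ∃ t2, x t2 = t2 ∧ t2 ∉ M ρ t1 := by
    by_contra hcon
    push Not at hcon
    have hle : ∀ t, x t = t → t ∈ M ρ t1 := hcon
    let f : Fx x × Fx x → M ρ t1 := fun c =>
      ⟨c.1 * ρ c.2, (M ρ t1).mul_mem (hle _ c.1.2) (M_inv h.toCR t1 _ (hle _ c.2.2))⟩
    have hf : Function.Injective f := by
      rintro ⟨c1, c2⟩ ⟨d1, d2⟩ he
      have he' : (c1 : T) * ρ c2 = d1 * ρ d2 := congrArg Subtype.val he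
      obtain ⟨e1, e2⟩ := inj_CC h c1.2 c2.2 d1.2 d2.2 he'
      exact Prod.ext (Subtype.ext e1) (Subtype.ext e2)
    have := Nat.card_le_card_of_injective f hf
    rw [Nat.card_prod, h8, card_M h.toCR ht1c] at this
    omega
  exact ⟨t1, t2, ht1, ht2, ht1c, ht2M⟩

end Cfsg.Agent.Lib.H90HsPr
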