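import Mathlib
import Cfsg.Agent.Lib.H90HsDefs

set_option autoImplicit false
set_option linter.unusedSectionVars false

/-! Project 3157 (row S3157, 3u), piece Sa.  Plan and conventions: notes/helper90/hs/README.md.
`CR ρ`: |T| = 64, T non-abelian, ρ³ = 1, ρ fixed-point-free.  `CX ρ x`: moreover x² = 1, x ρ = ρ² x.  `M ρ a = closure {a, ρ a} ⊔ centre`.
Lemmas of the imported pieces H90Hs* may be used (their stubs are in notes/helper90/hs/).

SKETCH. m p := ⟨!![1, p.b, p.c; 0, 1, p.a; 0, 0, 1], det = 1 (Matrix.det_fin_three)⟩ is a hom Heis F →* SL(3,F) (ext i j; fin_cases i, j; simp [Matrix.mul_apply, Fin.sum_univ_three]).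
f := (QuotientGroup.mk' (center)).comp m (ProjectiveSpecialLinearGroup = SL ⧸ center).  Kernel: m p ∈ center ⇒ m p is scalar (Matrix.SpecialLinearGroup.mem_center_iff) ⇒ entries (0,1), (0,2), (1,2) vanish ⇒ p = 1.
-/

namespace Cfsg.Agent.Lib.H90HsSa

open Cfsg.Agent.Lib.H90HsDefs Cfsg.Agent.Lib.Helper18F4
open scoped commutatorElement

variable {T : Type*} [Group T] {ρ x : MulAut T}

/-- the matrix of an element of the Heisenberg group -/
def mm (F : Type*) [Field F] : Heis F →* Matrix.SpecialLinearGroup (Fin 3) F where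
  toFun p := ⟨!![1, p.b, p.c; 0, 1, p.a; 0, 0, 1], by rw [Matrix.det_fin_three]; simp⟩
  map_one' := by
    apply Subtype.ext
    ext i j
    fin_cases i <;> fin_cases j <;> simp
  map_mul' p q := by
    apply Subtype.ext
    show !![1, (p * q).b, (p * q).c; 0, 1, (p * q).a; 0, 0, 1] =
      !![1, p.b, p.c; 0, 1, p.a; 0, 0, 1] * !![1, q.b, q.c; 0, 1, q.a; 0, 0, 1]
    ext i j
    fin_cases i <;> fin_cases j <;>
      simp [Matrix.mul_apply, Fin.sum_univ_three] <;> ring

theorem exists_hom (F : Type*) [Field F] :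
    ∃ f : Heis F →* Matrix.ProjectiveSpecialLinearGroup (Fin 3) F, Function.Injective f := by
  refine ⟨(QuotientGroup.mk' (Subgroup.center (Matrix.SpecialLinearGroup (Fin 3) F))).comp (mm F), ?_⟩
  rw [injective_iff_map_eq_one]
  intro p hp
  have h1 : mm F p ∈ Subgroup.center (Matrix.SpecialLinearGroup (Fin 3) F) := by
    rw [← QuotientGroup.eq_one_iff]
    exact hp
  rw [Matrix.SpecialLinearGroup.mem_center_iff] at h1
  obtain ⟨r, -, hr⟩ := h1
  have e01 := congrFun (congrFun hr 0) 1
  have e02 := congrFun (congrFun hr 0) 2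
  have e12 := congrFun (congrFun hr 1) 2
  simp [mm, Matrix.scalar_apply] at e01 e02 e12
  ext
  · exact e12.symm
  · exact e01.symm
  · exact e02.symm

end Cfsg.Agent.Lib.H90HsSa
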