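import Mathlib

set_option autoImplicit false

/-!
# PROJECT 34: vocabulary for `PSL(3,4)` on the 21 points of the projective plane (helper34)

`GF(4) = {0, 1, ω, ω²}` is coded `0, 1, 2, 3` (`ω² = ω + 1`).  The 21 points are the vectors of `GF(4)^3` whose first non-zero
coordinate is `1`, in lexicographic order of the codes:
`0:(0,0,1) 1:(0,1,0) 2:(0,1,1) 3:(0,1,ω) 4:(0,1,ω²) 5:(1,0,0) 6:(1,0,1) 7:(1,0,ω) 8:(1,0,ω²) 9:(1,1,0) 10:(1,1,1) 11:(1,1,ω)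
12:(1,1,ω²) 13:(1,ω,0) 14:(1,ω,1) 15:(1,ω,ω) 16:(1,ω,ω²) 17:(1,ω²,0) 18:(1,ω²,1) 19:(1,ω²,ω) 20:(1,ω²,ω²)`.
A matrix `M` of determinant one acts by `p ↦ ⟨M *ᵥ p⟩` (column vectors).
`X21` is the action of `Mx = !![ω,0,0; 0,ω,0; 1,0,ω]`, `Y21` the action of `My = !![ω,1,ω; ω,0,0; ω,ω²,ω]`.
-/

namespace Cfsg.Agent.Lib.Helper34L34Defs

def tX : Fin 21 → Fin 21 := ![0, 1, 2, 3, 4, 8, 7, 6, 5, 12, 11, 10, 9, 16, 15, 14, 13, 20, 19, 18, 17]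
def tXi : Fin 21 → Fin 21 := ![0, 1, 2, 3, 4, 8, 7, 6, 5, 12, 11, 10, 9, 16, 15, 14, 13, 20, 19, 18, 17]
def tY : Fin 21 → Fin 21 := ![6, 8, 7, 5, 0, 10, 1, 14, 18, 19, 16, 2, 9, 3, 12, 17, 15, 13, 20, 11, 4]
def tYi : Fin 21 → Fin 21 := ![4, 6, 11, 13, 20, 3, 0, 2, 1, 12, 5, 19, 14, 17, 7, 16, 10, 15, 8, 9, 18]

def X21 : Equiv.Perm (Fin 21) := ⟨tX, tXi, by decide, by decide⟩
def Y21 : Equiv.Perm (Fin 21) := ⟨tY, tYi, by decide, by decide⟩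

end Cfsg.Agent.Lib.Helper34L34Defs
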