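import Mathlib
import Cfsg.Agent.Lib.Helper34L34Defs
import Cfsg.Agent.Lib.Helper47Idx2
import Cfsg.Agent.Lib.Helper7SpCenter
import Cfsg.Agent.S0243

set_option autoImplicit false
set_option maxRecDepth 100000
set_option linter.unusedSectionVars false

/-! PROJECT 34, piece `Bridge`: `PSL(3,4)` on the 21 points of the projective plane. -/

namespace Cfsg.Agent.Lib.Helper11L34Bridge

open Cfsg.Agent.Lib.Helper34L34Defs Cfsg.Agent.Lib.Helper47Idx2

/-- a computable model of the field with four elements: `0, 1, ω, ω²` are coded `0, 1, 2, 3` -/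
def K4 : Type := Fin 4

instance : DecidableEq K4 := inferInstanceAs (DecidableEq (Fin 4))
instance : Fintype K4 := inferInstanceAs (Fintype (Fin 4))

def mk4 (n : ℕ) : K4 := (⟨n % 4, Nat.mod_lt _ (by norm_num)⟩ : Fin 4)
def cd (a : K4) : ℕ := Fin.val (show Fin 4 from a)

def add4 (a b : K4) : K4 := mk4 (Nat.xor (cd a) (cd b))
def mul4 (a b : K4) : K4 :=
  if cd a = 0 then mk4 0 else if cd b = 0 then mk4 0 else mk4 (((cd a - 1) + (cd b - 1)) % 3 + 1)
def inv4 (a : K4) : K4 := if cd a = 0 then mk4 0 else mk4 ((3 - (cd a - 1)) % 3 + 1)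

instance : Zero K4 := ⟨mk4 0⟩
instance : One K4 := ⟨mk4 1⟩
instance : Add K4 := ⟨add4⟩
instance : Mul K4 := ⟨mul4⟩
instance : Neg K4 := ⟨id⟩
instance : Inv K4 := ⟨inv4⟩

instance : CommRing K4 where
  add_assoc := by decide
  zero_add := by decide
  add_zero := by decide
  add_comm := by decide
  neg_add_cancel := by decide
  mul_assoc := by decide
  one_mul := by decide
  mul_one := by decide
  mul_comm := by decide
  left_distrib := by decide
  right_distrib := by decide
  zero_mul := by decide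
  mul_zero := by decide
  nsmul := nsmulRec
  zsmul := zsmulRec

instance : Field K4 where
  exists_pair_ne := ⟨0, 1, by decide⟩
  mul_inv_cancel := by decide
  inv_zero := by decide
  nnqsmul := _
  qsmul := _

theorem card_K4 : Fintype.card K4 = 4 := rfl

abbrev V : Type := Fin 3 → K4

def pt (j : Fin 21) : V :=
  if j.val = 0 then ![0, 0, 1]
  else if j.val < 5 then ![0, 1, mk4 (j.val - 1)]
  else ![1, mk4 ((j.val - 5) / 4), mk4 ((j.val - 5) % 4)]

def lab (v : V) : Fin 21 :=
  if v 0 ≠ 0 then ⟨(5 + 4 * cd ((v 0)⁻¹ * v 1) + cd ((v 0)⁻¹ * v 2)) % 21, Nat.mod_lt _ (by norm_num)⟩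
  else if v 1 ≠ 0 then ⟨(1 + cd ((v 1)⁻¹ * v 2)) % 21, Nat.mod_lt _ (by norm_num)⟩
  else 0

def PL : ProjLab K4 (Fin 3) 21 where
  pt := pt
  lab := lab
  lab_pt := by decide +kernel
  pt_ne := by decide +kernel
  pt_lab := by decide +kernel
  lab_smul := by decide +kernel

def om : K4 := mk4 2

def MxK : Matrix (Fin 3) (Fin 3) K4 := !![om, 0, 0; 0, om, 0; 1, 0, om]
def MyK : Matrix (Fin 3) (Fin 3) K4 := !![om, 1, om; om, 0, 0; om, om * om, om]

theorem detX : MxK.det = 1 := by decide +kernel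
theorem detY : MyK.det = 1 := by decide +kernel
theorem actX : ∀ j : Fin 21, lab (MxK.mulVec (pt j)) = X21 j := by decide +kernel
theorem actY : ∀ j : Fin 21, lab (MyK.mulVec (pt j)) = Y21 j := by decide +kernel

section general

variable {F : Type*} [Field F] [Fintype F]

/-- entrywise transport to the model -/
def fm (e : F ≃+* K4) : Matrix.SpecialLinearGroup (Fin 3) F →* Matrix (Fin 3) (Fin 3) K4 where
  toFun A := A.1.map e
  map_one' := by
    show (1 : Matrix (Fin 3) (Fin 3) F).map e = 1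
    exact Matrix.map_one e (map_zero e) (map_one e)
  map_mul' A B := by
    show (A.1 * B.1).map e = A.1.map e * B.1.map e
    exact Matrix.map_mul

theorem toPerm_scalar (e : F ≃+* K4) (A : Matrix.SpecialLinearGroup (Fin 3) F) (r : K4) (hr : r ≠ 0)
    (h : fm e A = Matrix.scalar (Fin 3) r) : PL.toPerm (fm e) A = 1 := by
  ext j
  rw [PL.toPerm_apply, h]
  have : (Matrix.scalar (Fin 3) r).mulVec (PL.pt j) = r • PL.pt j := by
    rw [Matrix.scalar_apply, ← Matrix.smul_one_eq_diagonal, Matrix.smul_mulVec, Matrix.one_mulVec]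
  rw [this, PL.lab_smul _ _ hr, PL.lab_pt]
  rfl

theorem center_le (e : F ≃+* K4) :
    ∀ A ∈ Subgroup.center (Matrix.SpecialLinearGroup (Fin 3) F), PL.toPerm (fm e) A = 1 := by
  intro A hA
  obtain ⟨r, hr, hA'⟩ := Matrix.SpecialLinearGroup.mem_center_iff.1 hA
  have hr0 : r ≠ 0 := by
    rintro rfl
    simp at hr
  apply toPerm_scalar e A (e r) (by simpa using hr0)
  show A.1.map e = _
  rw [← hA']
  ext i j
  simp [Matrix.scalar_apply, Matrix.diagonal_apply, apply_ite e]

theorem ker_le (e : F ≃+* K4) (A : Matrix.SpecialLinearGroup (Fin 3) F)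
    (h : PL.toPerm (fm e) A = 1) : A ∈ Subgroup.center (Matrix.SpecialLinearGroup (Fin 3) F) := by
  have h1 := PL.fix_of_toPerm_eq_one (fm e) A h
  have h2 : fm e A = Matrix.scalar (Fin 3) (fm e A 0 0) :=
    Cfsg.Agent.Lib.Helper7SpCenter.eq_scalar_of_fix (fm e A) h1 0
  have h3 : A.1 = Matrix.scalar (Fin 3) (A.1 0 0) := by
    ext i j
    have := congrFun (congrFun h2 i) j
    apply e.injective
    have e1 : fm e A i j = e (A.1 i j) := rfl
    have e2 : fm e A 0 0 = e (A.1 0 0) := rfl
    rw [e1, e2] at this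
    rw [this]
    simp [Matrix.scalar_apply, Matrix.diagonal_apply, apply_ite e]
  rw [Matrix.SpecialLinearGroup.mem_center_iff]
  refine ⟨A.1 0 0, ?_, h3.symm⟩
  have h4 := A.2
  rw [h3] at h4
  simpa using h4

def al (e : F ≃+* K4) : Matrix.ProjectiveSpecialLinearGroup (Fin 3) F →* Equiv.Perm (Fin 21) :=
  QuotientGroup.lift (Subgroup.center (Matrix.SpecialLinearGroup (Fin 3) F)) (PL.toPerm (fm e))
    (center_le e)

theorem al_mk (e : F ≃+* K4) (A : Matrix.SpecialLinearGroup (Fin 3) F) :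
    al e (QuotientGroup.mk A) = PL.toPerm (fm e) A := rfl

theorem al_injective (e : F ≃+* K4) : Function.Injective (al e) := by
  rw [injective_iff_map_eq_one]
  intro x hx
  induction x using QuotientGroup.induction_on with
  | H A =>
    rw [al_mk] at hx
    exact (QuotientGroup.eq_one_iff A).2 (ker_le e A hx)

theorem mem_range (e : F ≃+* K4) (M : Matrix (Fin 3) (Fin 3) K4) (hdet : M.det = 1)
    (z : Equiv.Perm (Fin 21)) (hz : ∀ j : Fin 21, lab (M.mulVec (pt j)) = z j) :
    z ∈ (al e).range := by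
  have hd : (M.map e.symm).det = 1 := by
    have := (RingHom.map_det (e.symm : K4 →+* F) M).symm
    rw [hdet, map_one] at this
    exact this
  let A : Matrix.SpecialLinearGroup (Fin 3) F := ⟨M.map e.symm, hd⟩
  refine ⟨QuotientGroup.mk A, ?_⟩
  rw [al_mk]
  ext j
  rw [PL.toPerm_apply]
  have : fm e A = M := by
    show (M.map e.symm).map e = M
    ext i j
    simp
  rw [this]
  exact congrArg Fin.val (hz j)

theorem bridge (hF : Fintype.card F = 4) :
    ∃ ρ : Matrix.ProjectiveSpecialLinearGroup (Fin 3) F →* Equiv.Perm (Fin 21),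
      Function.Injective ρ ∧ X21 ∈ ρ.range ∧ Y21 ∈ ρ.range := by
  have e : F ≃+* K4 := FiniteField.ringEquivOfCardEq (hF.trans card_K4.symm)
  exact ⟨al e, al_injective e, mem_range e MxK detX X21 actX, mem_range e MyK detY Y21 actY⟩

theorem card_psl (hF : Fintype.card F = 4) :
    Nat.card (Matrix.ProjectiveSpecialLinearGroup (Fin 3) F) = 20160 := by
  have h := Cfsg.Agent.S0243.result (F := F) (q := 4) hF 3 (by norm_num)
  have h2 : ∏ i : Fin 3, (4 ^ 3 - 4 ^ (i : ℕ)) = 181440 := by decide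
  rw [h2] at h
  have h3 : Nat.gcd 3 (4 - 1) = 3 := by decide
  rw [h3] at h
  omega

end general

end Cfsg.Agent.Lib.Helper11L34Bridge
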