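import Mathlib
import Cfsg.Agent.Lib.H90HsDefs
import Cfsg.Agent.Lib.H90HsSa
import Cfsg.Agent.Lib.H90HsCh
import Cfsg.Agent.Lib.Helper11L34Bridge

set_option autoImplicit false
set_option linter.unusedSectionVars false

/-! Project 3157 (row S3157, 3u), piece Sc.  Plan and conventions: notes/helper90/hs/README.md.
`CR ρ`: |T| = 64, T non-abelian, ρ³ = 1, ρ fixed-point-free.  `CX ρ x`: moreover x² = 1, x ρ = ρ² x.  `M ρ a = closure {a, ρ a} ⊔ centre`.
Lemmas of the imported pieces H90Hs* may be used (their stubs are in notes/helper90/hs/).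

SKETCH. f from exists_hom, P := f.range, card P = 64 (card_heis, MonoidHom.ofInjective), a 2-group (IsPGroup.of_card).  IsPGroup.exists_le_sylow: P ≤ S.
card PSL(3,4) = 20160 = 2^6 * 315 (Helper11L34Bridge.card_psl with F4c.card), so card S = 64 (Sylow.card_eq_multiplicity, or: card S = 2^k divides 20160 so k ≤ 6).  So P = S; Heis ≃* P (MonoidHom.ofInjective) = S.
-/

namespace Cfsg.Agent.Lib.H90HsSc

open Cfsg.Agent.Lib.H90HsDefs Cfsg.Agent.Lib.Helper18F4
open scoped commutatorElement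
open Cfsg.Agent.Lib.H90HsSa Cfsg.Agent.Lib.H90HsCh

variable {T : Type*} [Group T] {ρ x : MulAut T}

theorem exists_sylow : ∃ S : Sylow 2 (Matrix.ProjectiveSpecialLinearGroup (Fin 3) F4c),
    Nonempty (Heis F4c ≃* ↥(S : Subgroup (Matrix.ProjectiveSpecialLinearGroup (Fin 3) F4c))) := by
  obtain ⟨f, hf⟩ := exists_hom F4c
  have hG : Nat.card (Matrix.ProjectiveSpecialLinearGroup (Fin 3) F4c) = 20160 :=
    Cfsg.Agent.Lib.Helper11L34Bridge.card_psl F4c.card
  have hfin : Finite (Matrix.ProjectiveSpecialLinearGroup (Fin 3) F4c) :=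
    Nat.finite_of_card_ne_zero (by rw [hG]; norm_num)
  have hcP : Nat.card f.range = 64 := by
    rw [← Nat.card_congr (MonoidHom.ofInjective hf).toEquiv, card_heis]
  have hP : IsPGroup 2 f.range := IsPGroup.of_card (n := 6) (by rw [hcP]; norm_num)
  obtain ⟨S, hPS⟩ := hP.exists_le_sylow
  have : Fact (Nat.Prime 2) := ⟨Nat.prime_two⟩
  obtain ⟨k, hk⟩ := IsPGroup.iff_card.1 S.2
  have hdvd : Nat.card (S : Subgroup (Matrix.ProjectiveSpecialLinearGroup (Fin 3) F4c)) ∣ 20160 := by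
    rw [← hG]; exact Subgroup.card_subgroup_dvd_card _
  have hk6 : k ≤ 6 := by
    by_contra hcon
    have h7 : 2 ^ 7 ∣ 2 ^ k := pow_dvd_pow 2 (by omega)
    rw [hk] at hdvd
    have := h7.trans hdvd
    norm_num at this
  have hle : Nat.card (S : Subgroup (Matrix.ProjectiveSpecialLinearGroup (Fin 3) F4c)) ≤
      Nat.card f.range := by
    rw [hcP, hk]
    calc 2 ^ k ≤ 2 ^ 6 := Nat.pow_le_pow_right (by norm_num) hk6
      _ = 64 := by norm_num
  have heq : f.range = (S : Subgroup (Matrix.ProjectiveSpecialLinearGroup (Fin 3) F4c)) :=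
    Subgroup.eq_of_le_of_card_ge hPS hle
  exact ⟨S, ⟨(MonoidHom.ofInjective hf).trans (MulEquiv.subgroupCongr heq)⟩⟩

end Cfsg.Agent.Lib.H90HsSc
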