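import Mathlib
import Cfsg.Agent.Lib.H90HsDefs
import Cfsg.Agent.Lib.H90HsCl
import Cfsg.Agent.Lib.H90HsId
import Cfsg.Agent.Lib.H90HsSq
import Cfsg.Agent.Lib.H90HsNd
import Cfsg.Agent.Lib.H90HsXz
import Cfsg.Agent.Lib.H90HsPr
import Cfsg.Agent.Lib.H90HsIn
import Cfsg.Agent.Lib.H90HsHs
import Cfsg.Agent.Lib.H90HsHi

set_option autoImplicit false
set_option linter.unusedSectionVars false

/-! Project 3157 (row S3157, 3u), piece Sg.  Plan and conventions: notes/helper90/hs/README.md.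
`CR ρ`: |T| = 64, T non-abelian, ρ³ = 1, ρ fixed-point-free.  `CX ρ x`: moreover x² = 1, x ρ = ρ² x.  `M ρ a = closure {a, ρ a} ⊔ centre`.
Lemmas of the imported pieces H90Hs* may be used (their stubs are in notes/helper90/hs/).

SKETCH. t1, t2 from exists_pair, z0 from fix_center.  q1 := t1*t1, q2 := t2*t2, k := ⁅t1,t2⁆ are central (sq_mem, class2) and fixed by x, so each is 1 or z0; k ≠ 1 (nondeg + comm_symm) so k = z0.
(t1*t2)² = q1 * q2 * ⁅t2,t1⁆ (mul_sq).  Cases: q1 = q2 = 1: (t1, t2).  q1 = 1, q2 = z0: (t1, t1*t2) [(t1*t2)² = z0*z0 = 1].  q1 = z0, q2 = 1: (t2, t1*t2).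
q1 = q2 = z0: (t1 * ρ t2, t1 * ρ(ρ t2)) by sing_sq and sing_indep.  Independence in the first three cases: indep.
-/

namespace Cfsg.Agent.Lib.H90HsSg

open Cfsg.Agent.Lib.H90HsDefs Cfsg.Agent.Lib.Helper18F4
open scoped commutatorElement
open Cfsg.Agent.Lib.H90HsCl Cfsg.Agent.Lib.H90HsId Cfsg.Agent.Lib.H90HsSq Cfsg.Agent.Lib.H90HsNd Cfsg.Agent.Lib.H90HsXz Cfsg.Agent.Lib.H90HsPr Cfsg.Agent.Lib.H90HsIn Cfsg.Agent.Lib.H90HsHs Cfsg.Agent.Lib.H90HsHi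

variable {T : Type*} [Group T] {ρ x : MulAut T}

theorem exists_singular (h : CX ρ x) : ∃ a b : T, a ∉ Subgroup.center T ∧ b ∉ M ρ a ∧ a * a = 1 ∧ b * b = 1 := by
  obtain ⟨t1, t2, hx1, hx2, h1, h2⟩ := exists_pair h
  obtain ⟨z0, hz0, hz01, hxz0, hz⟩ := fix_center h
  have hr : CR ρ := h.toCR
  have hq1 : t1 * t1 = 1 ∨ t1 * t1 = z0 := hz _ (sq_mem hr t1) (by rw [map_mul, hx1])
  have hq2 : t2 * t2 = 1 ∨ t2 * t2 = z0 := hz _ (sq_mem hr t2) (by rw [map_mul, hx2])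
  have hk0 : ⁅t2, t1⁆ = 1 ∨ ⁅t2, t1⁆ = z0 :=
    hz _ (class2 hr t2 t1) (by rw [map_commutatorElement, hx1, hx2])
  have hk : ⁅t2, t1⁆ = z0 := hk0.resolve_left (nondeg hr h1 h2)
  have hk' : ⁅t1, t2⁆ = z0 := by rw [comm_symm hr, hk]
  have hzz : z0 * z0 = 1 := by rw [← hk]; exact comm_sq hr t2 t1
  have hsq : (t1 * t2) * (t1 * t2) = t1 * t1 * (t2 * t2) * z0 := by
    rw [mul_sq (class2 hr), hk]
  obtain ⟨i1, i2, i3, i4⟩ := indep hr h1 h2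
  rcases hq1 with hq1 | hq1 <;> rcases hq2 with hq2 | hq2
  · exact ⟨t1, t2, h1, h2, hq1, hq2⟩
  · exact ⟨t1, t1 * t2, h1, i3, hq1, by rw [hsq, hq1, hq2, one_mul, hzz]⟩
  · exact ⟨t2, t1 * t2, i1, i4, hq2, by rw [hsq, hq1, hq2, mul_one, hzz]⟩
  · obtain ⟨s1, s2⟩ := sing_sq hr hq1 hq2 hk'
    obtain ⟨j1, j2⟩ := sing_indep hr h1 h2
    exact ⟨_, _, j1, j2, s1, s2⟩

end Cfsg.Agent.Lib.H90HsSg
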