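import Mathlib

set_option autoImplicit false
set_option linter.unusedSectionVars false

/-! Row S3575 (project 3575): permutations of prime order and uniform partitions.  Vocabulary.

`σ` of prime order `r` with `c` cycles on `a * b` points fixes a partition into `b` parts of size `a` iff
`Good a b r c`: `t` = number of `r`-cycles of parts; the `r t` moved parts use `t a` cycles of `σ`, each of the
`b - r t` fixed parts contains at least `a % r` fixed points of `σ`. -/

namespace Cfsg.Agent.Lib.H90UpDefs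

/-- `σ` fixes a partition of `Ω` into parts of size `a` indexed by `B` -/
def FixP (a : ℕ) {Ω : Type*} (B : Type*) (σ : Equiv.Perm Ω) : Prop :=
  ∃ f : Ω → B, (∀ j : B, Nat.card {x : Ω // f x = j} = a) ∧
    ∃ π : Equiv.Perm B, ∀ x : Ω, f (σ x) = π (f x)

/-- the numerical criterion -/
def Good (a b r c : ℕ) : Prop :=
  ∃ t, r * t ≤ b ∧ t * a ≤ c ∧ (b - r * t) * (a % r) ≤ a * b - r * c

/-- the right hand side of S3575 -/
def RHS (a b r : ℕ) : Prop :=
  r ≤ a ∧ (a % r = 0 ∨ (b % r = 0 ∧ a % r = 1) ∨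
    (a % r ≠ 0 ∧ b % r ≠ 0 ∧ (b % r) * (a % r) < r ∧ (b < r ∨ (b % r + r) * (a % r) ≤ (b % r) * a + r)))

/-- the points of the model: `t` orbits of `r` moved parts, and `m` fixed parts; a fixed part consists of
`a % r` points and `a / r` slots of `r` points -/
abbrev Pts (a r t m : ℕ) : Type :=
  (Fin t × Fin a × ZMod r) ⊕ (Fin m × (Fin (a % r) ⊕ (Fin (a / r) × ZMod r)))

/-- the parts of the model -/
abbrev Prt (r t m : ℕ) : Type := (Fin t × ZMod r) ⊕ Fin m

/-- the part of a point -/
def part (a r t m : ℕ) : Pts a r t m → Prt r t m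
  | Sum.inl x => Sum.inl (x.1, x.2.2)
  | Sum.inr x => Sum.inr x.1

/-- the number of a slot -/
def idx {m n : ℕ} (s : Fin m) (u : Fin n) : ℕ := (finProdFinEquiv (s, u) : Fin (m * n)).val

/-- the step on the fixed parts: the slots of number `< E` are fixed pointwise, the others are rotated by `k` -/
def stepR (a r m E : ℕ) (k : ZMod r) :
    Fin m × (Fin (a % r) ⊕ (Fin (a / r) × ZMod r)) → Fin m × (Fin (a % r) ⊕ (Fin (a / r) × ZMod r))
  | (s, Sum.inl i) => (s, Sum.inl i)
  | (s, Sum.inr (u, z)) => (s, Sum.inr (u, if E ≤ idx s u then z + k else z))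

theorem stepR_stepR (a r m E : ℕ) (k k' : ZMod r)
    (x : Fin m × (Fin (a % r) ⊕ (Fin (a / r) × ZMod r))) :
    stepR a r m E k (stepR a r m E k' x) = stepR a r m E (k' + k) x := by
  obtain ⟨s, i | ⟨u, z⟩⟩ := x
  · rfl
  · simp only [stepR]
    split_ifs
    · rw [add_assoc]
    · rfl

theorem stepR_zero (a r m E : ℕ) (x : Fin m × (Fin (a % r) ⊕ (Fin (a / r) × ZMod r))) :
    stepR a r m E 0 x = x := by
  obtain ⟨s, i | ⟨u, z⟩⟩ := x
  · rfl
  · simp [stepR]

/-- the permutation of the fixed parts -/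
def permR (a r m E : ℕ) : Equiv.Perm (Fin m × (Fin (a % r) ⊕ (Fin (a / r) × ZMod r))) where
  toFun := stepR a r m E 1
  invFun := stepR a r m E (-1)
  left_inv x := by rw [stepR_stepR, add_neg_cancel, stepR_zero]
  right_inv x := by rw [stepR_stepR, neg_add_cancel, stepR_zero]

/-- the permutation of the moved parts -/
def permL (a r t : ℕ) : Equiv.Perm (Fin t × Fin a × ZMod r) :=
  Equiv.prodCongr (Equiv.refl _) (Equiv.prodCongr (Equiv.refl _) (Equiv.addRight 1))

/-- the model permutation -/
def perm0 (a r t m E : ℕ) : Equiv.Perm (Pts a r t m) := Equiv.sumCongr (permL a r t) (permR a r m E)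

/-- the induced permutation of the parts -/
def permP (r t m : ℕ) : Equiv.Perm (Prt r t m) :=
  Equiv.sumCongr (Equiv.prodCongr (Equiv.refl _) (Equiv.addRight 1)) (Equiv.refl _)

end Cfsg.Agent.Lib.H90UpDefs
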