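import Mathlib
import Cfsg.Agent.Lib.H90UpDefs


set_option autoImplicit false
set_option linter.unusedSectionVars false

namespace Cfsg.Agent.Lib.H90UpAr1

open Cfsg.Agent.Lib.H90UpDefs 

/-! Row S3575, piece Ar1: the interval form of `Good`.  With `a = r * (a / r) + a % r`:
`(b - r t) (a % r) ≤ a b - r c  ↔  c ≤ b (a / r) + t (a % r)` (for `r t ≤ b`, `r c ≤ a b`). -/

theorem good_iff {a b r c : ℕ} (hr : 0 < r) (hc : r * c ≤ a * b) :
    Good a b r c ↔ ∃ t, r * t ≤ b ∧ t * a ≤ c ∧ c ≤ b * (a / r) + t * (a % r) := by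
  have key : ∀ t, r * t ≤ b →
      ((b - r * t) * (a % r) ≤ a * b - r * c ↔ c ≤ b * (a / r) + t * (a % r)) := by
    intro t ht
    obtain ⟨d, rfl⟩ := Nat.exists_eq_add_of_le ht
    have ha : a = r * (a / r) + a % r := (Nat.div_add_mod a r).symm
    generalize a / r = a' at ha ⊢
    generalize a % r = l at ha ⊢
    subst ha
    rw [Nat.add_sub_cancel_left, Nat.le_sub_iff_add_le hc]
    constructor
    · intro h
      have : r * c ≤ r * ((r * t + d) * a' + t * l) := by nlinarith
      exact Nat.le_of_mul_le_mul_left this hr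
    · intro h
      have : r * c ≤ r * ((r * t + d) * a' + t * l) := Nat.mul_le_mul_left r h
      nlinarith
  constructor
  · rintro ⟨t, h1, h2, h3⟩
    exact ⟨t, h1, h2, (key t h1).1 h3⟩
  · rintro ⟨t, h1, h2, h3⟩
    exact ⟨t, h1, h2, (key t h1).2 h3⟩

end Cfsg.Agent.Lib.H90UpAr1
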