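import Mathlib
import Cfsg.Agent.Lib.H90UpDefs
import Cfsg.Agent.Lib.H90UpAr1

set_option autoImplicit false
set_option linter.unusedSectionVars false

namespace Cfsg.Agent.Lib.H90UpAr2

open Cfsg.Agent.Lib.H90UpDefs Cfsg.Agent.Lib.H90UpAr1

/-! Row S3575, piece Ar2 (necessity).  Write `a = r a' + ℓ`, `b = r b' + k`.  Use `good_iff`.
* `r ≤ a`: else `a' = 0`; `c = 1`: `t a ≤ 1` gives `t = 0`, `1 ≤ 0`.
* `ℓ ≠ 0`: `c = (a b) / r = b a' + b' ℓ + (k ℓ) / r`; `c ≤ b a' + t ℓ ≤ b a' + b' ℓ` gives `k ℓ < r`.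
* `ℓ ≠ 0`, `r ≤ b`: `c = b a' + (b' - 1) ℓ + 1`: `t = b'` and `b' a ≤ c` gives `ℓ ≤ k a' + 1`, which is
  `(k + r) ℓ ≤ k a + r`; if `k = 0` it gives `ℓ = 1`. -/

theorem rhs_of_good {a b r : ℕ} (ha : 2 ≤ a) (hb : 2 ≤ b) (hr : r.Prime) (hrN : r ≤ a * b)
    (h : ∀ c, 1 ≤ c → r * c ≤ a * b → Good a b r c) : RHS a b r := by
  have hr0 : 0 < r := hr.pos
  have h' : ∀ c, 1 ≤ c → r * c ≤ a * b →
      ∃ t, r * t ≤ b ∧ t * a ≤ c ∧ c ≤ b * (a / r) + t * (a % r) :=
    fun c h1 h2 => (good_iff hr0 h2).1 (h c h1 h2)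
  clear h
  have hra : r ≤ a := by
    by_contra hlt
    push_neg at hlt
    obtain ⟨t, h1, h2, h3⟩ := h' 1 le_rfl (by simpa using hrN)
    rw [Nat.div_eq_of_lt hlt, Nat.mod_eq_of_lt hlt] at h3
    have : t * a = 1 := by omega
    have := Nat.eq_one_of_mul_eq_one_left this
    omega
  refine ⟨hra, ?_⟩
  have hae : a = r * (a / r) + a % r := (Nat.div_add_mod a r).symm
  have hbe : b = r * (b / r) + b % r := (Nat.div_add_mod b r).symm
  have hl : a % r < r := Nat.mod_lt _ hr0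
  have hk : b % r < r := Nat.mod_lt _ hr0
  have hbd : r ≤ b → 1 ≤ b / r := fun hh => (Nat.one_le_div_iff hr0).2 hh
  have hblt : b < r → b % r = b := fun hh => Nat.mod_eq_of_lt hh
  generalize a / r = a' at *
  generalize a % r = l at *
  generalize b / r = b' at *
  generalize b % r = k at *
  by_cases hl0 : l = 0
  · exact Or.inl hl0
  right
  have hl1 : 1 ≤ l := Nat.one_le_iff_ne_zero.2 hl0
  have hab : a * b = r * (b * a') + r * (b' * l) + k * l := by
    rw [hae]; conv_lhs => rw [hbe]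
    conv_rhs => rw [hbe]
    ring
  have htb : ∀ t, r * t ≤ b → t ≤ b' := by
    intro t ht
    have : r * t < r * (b' + 1) := by rw [hbe] at ht; nlinarith
    have := Nat.lt_of_mul_lt_mul_left this
    omega
  have hkl : k * l < r := by
    by_contra hge
    push_neg at hge
    obtain ⟨t, h1, h2, h3⟩ := h' (b * a' + b' * l + 1) (by omega) (by rw [hab]; nlinarith)
    have := htb t h1
    have : t * l ≤ b' * l := Nat.mul_le_mul_right l this
    omega
  by_cases hbr : b < r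
  · right
    have := hblt hbr
    exact ⟨hl0, by omega, hkl, Or.inl hbr⟩
  push_neg at hbr
  have hb1 := hbd hbr
  obtain ⟨b'', rfl⟩ := Nat.exists_eq_add_of_le hb1
  obtain ⟨t, h1, h2, h3⟩ := h' (b * a' + b'' * l + 1) (by omega) (by rw [hab]; nlinarith)
  have ht1 := htb t h1
  have ht2 : 1 + b'' ≤ t := by
    by_contra hlt
    push_neg at hlt
    have : t ≤ b'' := by omega
    have : t * l ≤ b'' * l := Nat.mul_le_mul_right l this
    omega
  have ht : t = 1 + b'' := le_antisymm ht1 ht2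
  subst ht
  have hle : l ≤ k * a' + 1 := by
    rw [hae] at h2
    have : b * a' = r * (1 + b'') * a' + k * a' := by rw [hbe]; ring
    rw [this] at h2
    nlinarith
  by_cases hk0 : k = 0
  · left
    subst hk0
    exact ⟨rfl, by omega⟩
  · right
    refine ⟨hl0, hk0, hkl, Or.inr ?_⟩
    rw [hae]
    nlinarith

end Cfsg.Agent.Lib.H90UpAr2
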