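import Mathlib
import Cfsg.Agent.Lib.H90UpDefs
import Cfsg.Agent.Lib.H90UpAr1

set_option autoImplicit false
set_option linter.unusedSectionVars false

namespace Cfsg.Agent.Lib.H90UpAr3

open Cfsg.Agent.Lib.H90UpDefs Cfsg.Agent.Lib.H90UpAr1

/-! Row S3575, piece Ar3 (sufficiency).  Write `a = r a' + ℓ`, `b = r b' + k`.  Use `good_iff`.
If `c ≤ b a'` take `t = 0`.  This covers `ℓ = 0`.  Otherwise `r c ≤ a b` and `k ℓ < r` give `c ≤ b a' + b' ℓ`;
let `t` be least with `c ≤ b a' + t ℓ` (`Nat.find`): `1 ≤ t ≤ b'` (so `r ≤ b`) and `b a' + (t - 1) ℓ + 1 ≤ c`;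
`t a = t a' r + t ℓ ≤ (b - k) a' + t ℓ ≤ b a' + (t - 1) ℓ + 1` because `ℓ ≤ k a' + 1`
(which is `(k + r) ℓ ≤ k a + r`, resp. `k = 0`, `ℓ = 1`). -/

theorem good_of_rhs {a b r : ℕ} (ha : 2 ≤ a) (hb : 2 ≤ b) (hr : r.Prime) (h : RHS a b r) :
    ∀ c, 1 ≤ c → r * c ≤ a * b → Good a b r c := by
  intro c hc1 hc
  have hr0 : 0 < r := hr.pos
  rw [good_iff hr0 hc]
  obtain ⟨hra, h⟩ := h
  have hae : a = r * (a / r) + a % r := (Nat.div_add_mod a r).symm
  have hbe : b = r * (b / r) + b % r := (Nat.div_add_mod b r).symm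
  have hl : a % r < r := Nat.mod_lt _ hr0
  have hk : b % r < r := Nat.mod_lt _ hr0
  have hbd : b < r → b / r = 0 := fun hh => Nat.div_eq_of_lt hh
  generalize a / r = a' at *
  generalize a % r = l at *
  generalize b / r = b' at *
  generalize b % r = k at *
  by_cases hc0 : c ≤ b * a'
  · exact ⟨0, by simp, by simp, by simpa using hc0⟩
  push Not at hc0
  have hab : a * b = r * (b * a') + r * (b' * l) + k * l := by
    rw [hae]; conv_lhs => rw [hbe]
    conv_rhs => rw [hbe]
    ring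
  -- the two facts
  have hfacts : k * l < r ∧ (b' = 0 ∨ l ≤ k * a' + 1) := by
    rcases h with h | ⟨h1, h2⟩ | ⟨h1, h2, h3, h4⟩
    · subst h
      exact ⟨by simpa using hr0, Or.inr (by omega)⟩
    · subst h1; subst h2
      exact ⟨by simpa using hr0, Or.inr (by omega)⟩
    · refine ⟨h3, ?_⟩
      rcases h4 with h4 | h4
      · exact Or.inl (hbd h4)
      · right
        rw [hae] at h4
        have : r * l ≤ r * (k * a' + 1) := by nlinarith
        exact Nat.le_of_mul_le_mul_left this hr0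
  obtain ⟨hkl, hle⟩ := hfacts
  have hcb : c ≤ b * a' + b' * l := by
    have : r * c < r * (b * a' + b' * l + 1) := by rw [hab] at hc; nlinarith
    have := Nat.lt_of_mul_lt_mul_left this
    omega
  have hex : ∃ t, c ≤ b * a' + t * l := ⟨b', hcb⟩
  classical
  have hmin := fun m => @Nat.find_min _ _ hex m
  have hspec := Nat.find_spec hex
  have hle' : Nat.find hex ≤ b' := Nat.find_min' hex hcb
  generalize Nat.find hex = t at *
  have ht0 : t ≠ 0 := by
    rintro rfl
    simp at hspec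
    omega
  obtain ⟨s, rfl⟩ := Nat.exists_eq_succ_of_ne_zero ht0
  have hs := hmin s (Nat.lt_succ_self s)
  push Not at hs
  have hle2 : l ≤ k * a' + 1 := by
    rcases hle with h0 | h0
    · omega
    · exact h0
  refine ⟨s + 1, ?_, ?_, hspec⟩
  · rw [hbe]
    have : r * (s + 1) ≤ r * b' := Nat.mul_le_mul_left r hle'
    omega
  · rw [hae]
    have h1 : r * (s + 1) ≤ r * b' := Nat.mul_le_mul_left r hle'
    have h2 : r * (s + 1) * a' ≤ r * b' * a' := Nat.mul_le_mul_right a' h1
    have h3 : b * a' = r * b' * a' + k * a' := by rw [hbe]; ring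
    have h4 : (s + 1) * (r * a' + l) = r * (s + 1) * a' + s * l + l := by ring
    rw [h4]
    omega

end Cfsg.Agent.Lib.H90UpAr3
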