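import Mathlib
import Cfsg.Agent.Lib.H90UpDefs


set_option autoImplicit false
set_option linter.unusedSectionVars false

namespace Cfsg.Agent.Lib.H90UpEx

open Cfsg.Agent.Lib.H90UpDefs 

/-! Row S3575, piece Ex: permutations of prime order with a given number of cycles. -/

/-- `Equiv.Perm.exists_with_cycleType_iff` with `Multiset.replicate c r`; `Equiv.Perm.lcm_cycleType`,
`Equiv.Perm.sum_cycleType`. -/
theorem exists_perm {N r c : ℕ} (hr : r.Prime) (hc : 1 ≤ c) (h : r * c ≤ N) :
    ∃ σ : Equiv.Perm (Fin N), orderOf σ = r ∧ σ.support.card = r * c := by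
  obtain ⟨σ, hσ⟩ := (Equiv.Perm.exists_with_cycleType_iff (α := Fin N)
    (m := Multiset.replicate c r)).mpr ⟨by
      rw [Multiset.sum_replicate, Fintype.card_fin, smul_eq_mul, mul_comm]; exact h, by
      intro a ha
      rw [Multiset.eq_of_mem_replicate ha]
      exact hr.two_le⟩
  refine ⟨σ, ?_, ?_⟩
  · rw [← Equiv.Perm.lcm_cycleType, hσ]
    obtain ⟨c', rfl⟩ : ∃ c', c = c' + 1 := ⟨c - 1, by omega⟩
    clear hσ h hc
    induction c' with
    | zero => simp
    | succ k ih =>
      rw [Multiset.replicate_succ, Multiset.lcm_cons, ih]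
      simp
  · rw [← Equiv.Perm.sum_cycleType, hσ, Multiset.sum_replicate, smul_eq_mul, mul_comm]

/-- `Equiv.Perm.cycleType_prime_order`, `Equiv.Perm.sum_cycleType`, `Finset.card_le_univ`. -/
theorem exists_count {N r : ℕ} (hr : r.Prime) (σ : Equiv.Perm (Fin N)) (hσ : orderOf σ = r) :
    ∃ c, 1 ≤ c ∧ r * c ≤ N ∧ σ.support.card = r * c := by
  obtain ⟨n1, h1⟩ := Equiv.Perm.cycleType_prime_order (σ := σ) (by rw [hσ]; exact hr)
  have s1 := Equiv.Perm.sum_cycleType σ
  rw [h1, Multiset.sum_replicate, hσ, smul_eq_mul, mul_comm] at s1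
  refine ⟨n1 + 1, by omega, ?_, s1.symm⟩
  rw [s1]
  simpa using Finset.card_le_univ σ.support

/-- `Nat.uniformBell_mul_eq` gives `a ! ^ b * b ! ∣ (a * b)!`, so `r ∣ (a * b)!`; `Nat.Prime.dvd_factorial`. -/
theorem le_of_dvd {a b r : ℕ} (ha : 1 ≤ a) (hr : r.Prime)
    (hrd : r ∣ (a * b).factorial / (a.factorial ^ b * b.factorial)) : r ≤ a * b := by
  by_contra hlt
  push Not at hlt
  have hpos : 0 < (a * b).factorial / (a.factorial ^ b * b.factorial) := by
    rcases Nat.eq_zero_or_pos ((a * b).factorial / (a.factorial ^ b * b.factorial)) with h0 | h0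
    · exfalso
      have hd : a.factorial ^ b * b.factorial ∣ (a * b).factorial := by
        have := Nat.uniformBell_mul_eq b (n := a) (by omega)
        rw [mul_comm a b, ← this]
        exact ⟨Nat.uniformBell b a, by ring⟩
      have hle := Nat.le_of_dvd (Nat.factorial_pos _) hd
      have := (Nat.div_eq_zero_iff).mp h0
      rcases this with h | h
      · have : 0 < a.factorial ^ b * b.factorial :=
          Nat.mul_pos (pow_pos (Nat.factorial_pos _) _) (Nat.factorial_pos _)
        omega
      · omega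
    · exact h0
  have hd2 : (a * b).factorial / (a.factorial ^ b * b.factorial) ∣ (a * b).factorial := by
    have hd : a.factorial ^ b * b.factorial ∣ (a * b).factorial := by
      have := Nat.uniformBell_mul_eq b (n := a) (by omega)
      rw [mul_comm a b, ← this]
      exact ⟨Nat.uniformBell b a, by ring⟩
    exact Nat.div_dvd_of_dvd hd
  have := (hr.dvd_factorial).mp (hrd.trans hd2)
  omega

end Cfsg.Agent.Lib.H90UpEx
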