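import Mathlib
import Cfsg.Agent.Lib.H90UpDefs


set_option autoImplicit false
set_option linter.unusedSectionVars false

namespace Cfsg.Agent.Lib.H90UpMFix

open Cfsg.Agent.Lib.H90UpDefs 

/-! Row S3575, piece MFix: the fixed points of the model permutation. -/

/-- `finProdFinEquiv` and `Fin.card_filter_val_lt`-like counting. -/
theorem card_idx_lt {m n E : ℕ} (hE : E ≤ m * n) :
    Nat.card {p : Fin m × Fin n // idx p.1 p.2 < E} = E := by
  have e : {p : Fin m × Fin n // idx p.1 p.2 < E} ≃ {i : Fin (m * n) // i.val < E} :=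
    Equiv.subtypeEquiv finProdFinEquiv (fun p => Iff.rfl)
  rw [Nat.card_congr e, Nat.card_eq_fintype_card, Fintype.card_subtype, Fin.card_filter_val_lt]
  omega

/-- the fixed points are the `(s, inl i)` and the `(s, inr (u, z))` with `idx s u < E` (`z + 1 ≠ z` as `1 < r`). -/
theorem card_fixed (a r t m E : ℕ) (hr : 1 < r) (hE : E ≤ m * (a / r)) :
    Nat.card {x : Pts a r t m // perm0 a r t m E x = x} = m * (a % r) + r * E := by
  haveI : NeZero r := ⟨by omega⟩
  haveI : Fact (1 < r) := ⟨hr⟩
  have hne : ∀ z : ZMod r, z + 1 ≠ z := by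
    intro z hz
    have : (1 : ZMod r) = 0 := by simpa using hz
    exact one_ne_zero this
  let T := (Fin m × Fin (a % r)) ⊕ ({p : Fin m × Fin (a / r) // idx p.1 p.2 < E} × ZMod r)
  have e : {x : Pts a r t m // perm0 a r t m E x = x} ≃ T :=
    { toFun := fun x =>
        match x with
        | ⟨Sum.inl y, h⟩ => by
            exfalso
            obtain ⟨τ, i, z⟩ := y
            simp only [perm0, permL, Equiv.sumCongr_apply, Sum.map_inl, Sum.inl.injEq,
              Equiv.prodCongr_apply, Prod.map_apply, Equiv.refl_apply, Equiv.coe_addRight,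
              Prod.mk.injEq, true_and] at h
            exact hne z h
        | ⟨Sum.inr (s, Sum.inl i), _⟩ => Sum.inl (s, i)
        | ⟨Sum.inr (s, Sum.inr (u, z)), h⟩ => Sum.inr (⟨(s, u), by
            by_contra hlt
            have hle : E ≤ idx s u := not_lt.mp hlt
            simp only [perm0, permR, Equiv.sumCongr_apply, Sum.map_inr, Sum.inr.injEq,
              Equiv.coe_fn_mk, stepR, if_pos hle, Prod.mk.injEq, true_and] at h
            exact hne z h⟩, z)
      invFun := fun y =>
        match y with
        | Sum.inl (s, i) => ⟨Sum.inr (s, Sum.inl i), rfl⟩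
        | Sum.inr (⟨(s, u), h⟩, z) => ⟨Sum.inr (s, Sum.inr (u, z)), by
            have hle : ¬ E ≤ idx s u := not_le.mpr h
            simp only [perm0, permR, Equiv.sumCongr_apply, Sum.map_inr, Sum.inr.injEq,
              Equiv.coe_fn_mk, stepR, if_neg hle]⟩
      left_inv := by
        rintro ⟨⟨τ, i, z⟩ | ⟨s, i | ⟨u, z⟩⟩, h⟩
        · exfalso
          simp only [perm0, permL, Equiv.sumCongr_apply, Sum.map_inl, Sum.inl.injEq,
              Equiv.prodCongr_apply, Prod.map_apply, Equiv.refl_apply, Equiv.coe_addRight,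
              Prod.mk.injEq, true_and] at h
          exact hne z h
        · rfl
        · rfl
      right_inv := by
        rintro (⟨s, i⟩ | ⟨⟨⟨s, u⟩, h⟩, z⟩)
        · rfl
        · rfl }
  rw [Nat.card_congr e, Nat.card_sum, Nat.card_prod, Nat.card_prod, card_idx_lt hE]
  simp [Nat.card_eq_fintype_card, ZMod.card, mul_comm]

end Cfsg.Agent.Lib.H90UpMFix
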