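import Mathlib
import Cfsg.Agent.Lib.H90UpDefs


set_option autoImplicit false
set_option linter.unusedSectionVars false

namespace Cfsg.Agent.Lib.H90UpMPow

open Cfsg.Agent.Lib.H90UpDefs 

/-! Row S3575, piece MPow: the model permutation has order dividing `r`, and it fixes the model partition. -/

theorem permR_pow (a r m E : ℕ) (k : ℕ) (x : Fin m × (Fin (a % r) ⊕ (Fin (a / r) × ZMod r))) :
    (permR a r m E ^ k) x = stepR a r m E (k : ZMod r) x := by
  induction k with
  | zero => simp [stepR_zero]
  | succ k ih =>
    rw [pow_succ', Equiv.Perm.mul_apply, ih]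
    change stepR a r m E 1 _ = _
    rw [stepR_stepR]
    push_cast
    rfl

theorem permL_pow (a r t : ℕ) (k : ℕ) (x : Fin t × Fin a × ZMod r) :
    (permL a r t ^ k) x = (x.1, x.2.1, x.2.2 + (k : ZMod r)) := by
  induction k with
  | zero => simp
  | succ k ih =>
    rw [pow_succ', Equiv.Perm.mul_apply, ih]
    simp [permL, add_assoc]

theorem perm0_pow_apply (a r t m E : ℕ) (k : ℕ) (x : Pts a r t m) :
    (perm0 a r t m E ^ k) x = Sum.map (permL a r t ^ k) (permR a r m E ^ k) x := by
  induction k generalizing x with
  | zero => rcases x with x | x <;> simp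
  | succ k ih =>
    rw [pow_succ, Equiv.Perm.mul_apply, ih]
    rcases x with x | x <;> simp [perm0, pow_succ]

/-- `stepR_stepR` gives `(permR ..) ^ k = stepR .. k`; `(r : ZMod r) = 0`. -/
theorem perm0_pow (a r t m E : ℕ) : perm0 a r t m E ^ r = 1 := by
  ext1 x
  rw [perm0_pow_apply]
  rcases x with x | x
  · simp [permL_pow]
  · simp [permR_pow, stepR_zero]

theorem part_perm0 (a r t m E : ℕ) (x : Pts a r t m) :
    part a r t m (perm0 a r t m E x) = permP r t m (part a r t m x) := by
  rcases x with ⟨τ, i, z⟩ | ⟨s, i | ⟨u, z⟩⟩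
  · rfl
  · rfl
  · rfl

/-- the fibres of `part`: over `inl (τ, z)` it is `Fin a`, over `inr s` it is
`Fin (a % r) ⊕ Fin (a / r) × ZMod r`, of cardinality `a % r + a / r * r = a`. -/
theorem card_fibre (a r t m : ℕ) [NeZero r] (j : Prt r t m) :
    Nat.card {x : Pts a r t m // part a r t m x = j} = a := by
  rcases j with ⟨τ, z⟩ | s
  · have e : {x : Pts a r t m // part a r t m x = Sum.inl (τ, z)} ≃ Fin a :=
      { toFun := fun x =>
          match x with
          | ⟨Sum.inl y, _⟩ => y.2.1
          | ⟨Sum.inr y, h⟩ => by
              exfalso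
              simp [part] at h
        invFun := fun i => ⟨Sum.inl (τ, i, z), rfl⟩
        left_inv := by
          rintro ⟨⟨τ', i, z'⟩ | y, h⟩
          · simp only [part, Sum.inl.injEq, Prod.mk.injEq] at h
            obtain ⟨rfl, rfl⟩ := h
            rfl
          · exfalso
            simp [part] at h
        right_inv := fun i => rfl }
    rw [Nat.card_congr e]
    simp
  · have e : {x : Pts a r t m // part a r t m x = Sum.inr s} ≃
        (Fin (a % r) ⊕ (Fin (a / r) × ZMod r)) :=
      { toFun := fun x =>
          match x with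
          | ⟨Sum.inl y, h⟩ => by
              exfalso
              simp [part] at h
          | ⟨Sum.inr y, _⟩ => y.2
        invFun := fun i => ⟨Sum.inr (s, i), rfl⟩
        left_inv := by
          rintro ⟨y | ⟨s', i⟩, h⟩
          · exfalso
            simp [part] at h
          · simp only [part, Sum.inr.injEq] at h
            subst h
            rfl
        right_inv := fun i => rfl }
    rw [Nat.card_congr e, Nat.card_sum, Nat.card_prod]
    simp only [Nat.card_eq_fintype_card, Fintype.card_fin, ZMod.card]
    rw [mul_comm]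
    exact Nat.mod_add_div a r

theorem fixP_perm0 (a r t m E : ℕ) [NeZero r] : FixP a (Prt r t m) (perm0 a r t m E) :=
  ⟨part a r t m, card_fibre a r t m, permP r t m, part_perm0 a r t m E⟩

end Cfsg.Agent.Lib.H90UpMPow
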