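import Mathlib
import Cfsg.Agent.Lib.H90UpDefs


set_option autoImplicit false
set_option linter.unusedSectionVars false

namespace Cfsg.Agent.Lib.H90UpTr

open Cfsg.Agent.Lib.H90UpDefs 

/-! Row S3575, piece Tr: transport along equivalences and conjugation. -/

theorem fixP_congr {a : ℕ} {Ω Ω' B B' : Type*} (e : Ω ≃ Ω') (eB : B ≃ B') (σ : Equiv.Perm Ω) (h : FixP a B σ) :
    FixP a B' (e.permCongr σ) := by
  obtain ⟨f, hf, π, hπ⟩ := h
  refine ⟨fun x => eB (f (e.symm x)), fun j => ?_, eB.permCongr π, fun x => ?_⟩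
  · rw [← hf (eB.symm j)]
    apply Nat.card_congr
    refine Equiv.subtypeEquiv e.symm (fun x => ?_)
    rw [Equiv.eq_symm_apply]
  · simp [Equiv.permCongr_apply, hπ]

theorem fixP_conj {a : ℕ} {Ω B : Type*} (g σ : Equiv.Perm Ω) (h : FixP a B σ) : FixP a B (g * σ * g⁻¹) := by
  have := fixP_congr g (Equiv.refl B) σ h
  have h2 : g.permCongr σ = g * σ * g⁻¹ := by
    ext x
    simp [Equiv.permCongr_apply, Equiv.Perm.inv_def]
  rwa [h2] at this

/-- `Equiv.Perm.cycleType_prime_order`, `Equiv.Perm.sum_cycleType`, `Equiv.Perm.isConj_iff_cycleType_eq`. -/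
theorem fixP_of_same {N a b r : ℕ} (hr : r.Prime) (σ τ : Equiv.Perm (Fin N)) (hσ : orderOf σ = r)
    (hτ : orderOf τ = r) (h : σ.support.card = τ.support.card) (hF : FixP a (Fin b) τ) :
    FixP a (Fin b) σ := by
  obtain ⟨n1, h1⟩ := Equiv.Perm.cycleType_prime_order (σ := σ) (by rw [hσ]; exact hr)
  obtain ⟨n2, h2⟩ := Equiv.Perm.cycleType_prime_order (σ := τ) (by rw [hτ]; exact hr)
  have s1 := Equiv.Perm.sum_cycleType σ
  have s2 := Equiv.Perm.sum_cycleType τ
  rw [h1, Multiset.sum_replicate, hσ] at s1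
  rw [h2, Multiset.sum_replicate, hτ] at s2
  have hn : n1 = n2 := by
    have : (n1 + 1) * r = (n2 + 1) * r := by
      simpa [smul_eq_mul] using s1.trans (h.trans s2.symm)
    have := Nat.eq_of_mul_eq_mul_right hr.pos this
    omega
  have hc : IsConj τ σ := by
    rw [Equiv.Perm.isConj_iff_cycleType_eq, h1, h2, hσ, hτ, hn]
  obtain ⟨g, hg⟩ := isConj_iff.mp hc
  rw [← hg]
  exact fixP_conj g τ hF

end Cfsg.Agent.Lib.H90UpTr
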