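import Mathlib
import Cfsg.Agent.Lib.H90UpDefs
import Cfsg.Agent.Lib.H90UpMPow
import Cfsg.Agent.Lib.H90UpMFix
import Cfsg.Agent.Lib.H90UpTr

set_option autoImplicit false
set_option linter.unusedSectionVars false

namespace Cfsg.Agent.Lib.H90UpModel

open Cfsg.Agent.Lib.H90UpDefs Cfsg.Agent.Lib.H90UpMPow Cfsg.Agent.Lib.H90UpMFix Cfsg.Agent.Lib.H90UpTr

/-! Row S3575, piece Model.  `m := b - r * t`, `E := m * (a / r) + t * a - c`.
`m * (a % r) + r * E = a * b - r * c`; `E ≤ m * (a / r)` because `t * a ≤ c`.
`Pts a r t m` has `a * b` elements, `Prt r t m` has `b` elements: transport `perm0 a r t m E` with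
`Fintype.equivFinOfCardEq` and `fixP_congr`.  The transported permutation `σ` satisfies `σ ^ r = 1`, its number of fixed
points is `a * b - r * c < a * b`, so `σ ≠ 1`, `orderOf σ = r` (`orderOf_eq_prime`) and `σ.support.card = r * c`. -/

theorem support_card_of_fixed {N k : ℕ} (σ : Equiv.Perm (Fin N))
    (h : Nat.card {x : Fin N // σ x = x} = k) : σ.support.card = N - k := by
  rw [Nat.card_eq_fintype_card, Fintype.card_subtype] at h
  have h2 := Finset.card_filter_add_card_filter_not (s := (Finset.univ : Finset (Fin N)))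
    (fun x => σ x = x)
  have h3 : σ.support = Finset.univ.filter (fun x => ¬ σ x = x) := by
    ext x
    simp
  rw [h3]
  rw [h, Finset.card_univ, Fintype.card_fin] at h2
  omega

theorem exists_model {a b r c t : ℕ} (hr : r.Prime) (hc : 1 ≤ c) (hcN : r * c ≤ a * b) (h1 : r * t ≤ b)
    (h2 : t * a ≤ c) (h3 : (b - r * t) * (a % r) ≤ a * b - r * c) :
    ∃ σ : Equiv.Perm (Fin (a * b)), orderOf σ = r ∧ σ.support.card = r * c ∧ FixP a (Fin b) σ := by
  haveI : NeZero r := ⟨hr.pos.ne'⟩
  haveI : Fact r.Prime := ⟨hr⟩
  obtain ⟨m, rfl⟩ : ∃ m, b = m + r * t := ⟨b - r * t, by omega⟩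
  rw [Nat.add_sub_cancel] at h3
  have ha : a = r * (a / r) + a % r := (Nat.div_add_mod a r).symm
  set a' := a / r with ha'
  set l := a % r with hl
  have hab : a * (m + r * t) = r * (m * a' + t * a) + m * l := by
    have : a * m = r * (m * a') + m * l := by
      conv_lhs => rw [ha]
      ring
    calc a * (m + r * t) = a * m + r * (t * a) := by ring
      _ = r * (m * a' + t * a) + m * l := by rw [this]; ring
  have hcle : c ≤ m * a' + t * a := by
    have : r * c ≤ r * (m * a' + t * a) := by omega
    exact Nat.le_of_mul_le_mul_left this hr.pos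
  obtain ⟨E, hE⟩ : ∃ E, m * a' + t * a = c + E := ⟨m * a' + t * a - c, by omega⟩
  have hEle : E ≤ m * a' := by omega
  have hfix0 := card_fixed a r t m E hr.one_lt hEle
  have hfixN : m * (a % r) + r * E = a * (m + r * t) - r * c := by
    rw [hab, hE]
    have : r * (c + E) = r * c + r * E := by ring
    rw [this, ← hl]
    omega
  have hcardP : Fintype.card (Pts a r t m) = a * (m + r * t) := by
    simp only [Fintype.card_sum, Fintype.card_prod, Fintype.card_fin, ZMod.card]
    have : a % r + a / r * r = a := by rw [mul_comm]; exact Nat.mod_add_div a r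
    rw [this]
    ring
  have hcardB : Fintype.card (Prt r t m) = m + r * t := by
    simp only [Fintype.card_sum, Fintype.card_prod, Fintype.card_fin, ZMod.card]
    ring
  let e : Pts a r t m ≃ Fin (a * (m + r * t)) := Fintype.equivFinOfCardEq hcardP
  let eB : Prt r t m ≃ Fin (m + r * t) := Fintype.equivFinOfCardEq hcardB
  have hF := fixP_congr e eB (perm0 a r t m E) (fixP_perm0 a r t m E)
  have hpow : (e.permCongr (perm0 a r t m E)) ^ r = 1 := by
    have := map_pow e.permCongrHom (perm0 a r t m E) r
    rw [perm0_pow, map_one] at this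
    exact this.symm
  have hfix : Nat.card {x : Fin (a * (m + r * t)) // e.permCongr (perm0 a r t m E) x = x}
      = a * (m + r * t) - r * c := by
    rw [← hfixN, ← hfix0]
    apply Nat.card_congr
    refine Equiv.subtypeEquiv e.symm (fun x => ?_)
    rw [Equiv.permCongr_apply, Equiv.apply_eq_iff_eq_symm_apply]
  have hsupp := support_card_of_fixed _ hfix
  have hsupp' : (e.permCongr (perm0 a r t m E)).support.card = r * c := by omega
  refine ⟨e.permCongr (perm0 a r t m E), ?_, hsupp', hF⟩
  apply orderOf_eq_prime hpow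
  intro h1
  rw [h1, Equiv.Perm.support_one, Finset.card_empty] at hsupp'
  have := Nat.mul_pos hr.pos hc
  omega

end Cfsg.Agent.Lib.H90UpModel
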