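import Mathlib
import Cfsg.Agent.Lib.H90UpDefs


set_option autoImplicit false
set_option linter.unusedSectionVars false

namespace Cfsg.Agent.Lib.H90UpNecA

open Cfsg.Agent.Lib.H90UpDefs 

/-! Row S3575, piece NecA. -/

variable {Ω : Type*} [Fintype Ω] [DecidableEq Ω]

/-- `f` is onto (the fibres have `a ≥ 1` elements) and `f (σ ^ k x) = π ^ k (f x)`. -/
theorem pi_pow {a b r : ℕ} (ha : 1 ≤ a) (σ : Equiv.Perm Ω) (hσ : σ ^ r = 1) (f : Ω → Fin b)
    (hf : ∀ j, Nat.card {x : Ω // f x = j} = a) (π : Equiv.Perm (Fin b))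
    (hπ : ∀ x, f (σ x) = π (f x)) : π ^ r = 1 := by
  have hpow : ∀ (k : ℕ) (x : Ω), f ((σ ^ k) x) = (π ^ k) (f x) := by
    intro k
    induction k with
    | zero => intro x; simp
    | succ n ih =>
      intro x
      rw [pow_succ', pow_succ', Equiv.Perm.mul_apply, Equiv.Perm.mul_apply, hπ, ih]
  ext j
  have hne : Nonempty {x : Ω // f x = j} := by
    by_contra hcon
    rw [not_nonempty_iff] at hcon
    have := hf j
    rw [Nat.card_of_isEmpty] at this
    omega
  obtain ⟨⟨x, hx⟩⟩ := hne
  have := hpow r x
  rw [hσ, hx] at this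
  simp only [Equiv.Perm.coe_one, id_eq] at this
  rw [← this, hx]
  simp

/-- the points of the moved parts are moved: `f ⁻¹ (support π) ⊆ support σ`, and the left hand side has
`a * π.support.card` elements (sum of the fibres). -/
theorem moved_le {a b : ℕ} (σ : Equiv.Perm Ω) (f : Ω → Fin b)
    (hf : ∀ j, Nat.card {x : Ω // f x = j} = a) (π : Equiv.Perm (Fin b))
    (hπ : ∀ x, f (σ x) = π (f x)) : a * π.support.card ≤ σ.support.card := by
  classical
  have hsub : (Finset.univ.filter (fun x : Ω => f x ∈ π.support)) ⊆ σ.support := by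
    intro x hx
    rw [Finset.mem_filter] at hx
    rw [Equiv.Perm.mem_support] at hx ⊢
    intro h
    apply hx.2
    rw [← hπ, h]
  have hcard : (Finset.univ.filter (fun x : Ω => f x ∈ π.support)).card = a * π.support.card := by
    rw [Finset.card_eq_sum_card_fiberwise (f := f) (t := π.support)]
    · rw [Finset.sum_congr rfl (g := fun _ => a)]
      · rw [Finset.sum_const, smul_eq_mul, mul_comm]
      · intro j hj
        rw [← hf j, Nat.card_eq_fintype_card, Fintype.card_subtype]
        congr 1
        ext x
        simp only [Finset.mem_filter, Finset.mem_univ, true_and]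
        constructor
        · rintro ⟨_, h⟩; exact h
        · intro h; exact ⟨h ▸ hj, h⟩
    · intro x hx
      simpa using hx
  rw [← hcard]
  exact Finset.card_le_card hsub

end Cfsg.Agent.Lib.H90UpNecA
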