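import Mathlib
import Cfsg.Agent.Lib.H90UpDefs


set_option autoImplicit false
set_option linter.unusedSectionVars false

namespace Cfsg.Agent.Lib.H90UpNecB

open Cfsg.Agent.Lib.H90UpDefs 

/-! Row S3575, piece NecB. -/

variable {Ω : Type*} [Fintype Ω] [DecidableEq Ω]

/-- a fixed part `j` (`π j = j`) is `σ`-invariant with `a` elements, so the number of fixed points of `σ` in it is
`≡ a` mod `r` (restrict `σ` to the fibre with `Equiv.Perm.subtypePerm`; `Equiv.Perm.card_compl_support_modEq` or
`Equiv.Perm.card_fixedPoints_modEq`), hence `≥ a % r`. -/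
theorem fixed_in_part {a b r : ℕ} (hr : r.Prime) (σ : Equiv.Perm Ω) (hσ : σ ^ r = 1) (f : Ω → Fin b)
    (hf : ∀ j, Nat.card {x : Ω // f x = j} = a) (π : Equiv.Perm (Fin b))
    (hπ : ∀ x, f (σ x) = π (f x)) (j : Fin b) (hj : π j = j) :
    a % r ≤ Nat.card {x : Ω // f x = j ∧ σ x = x} := by
  classical
  haveI : Fact r.Prime := ⟨hr⟩
  have hinv : ∀ x, f (σ x) = j ↔ f x = j := by
    intro x
    rw [hπ]
    constructor
    · intro h
      apply π.injective
      rw [h, hj]
    · intro h
      rw [h, hj]
  set τ : Equiv.Perm {x : Ω // f x = j} := σ.subtypePerm hinv with hτ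
  have hτr : τ ^ r ^ 1 = 1 := by
    rw [pow_one, hτ, Equiv.Perm.subtypePerm_pow]
    ext x
    simp [hσ]
  have h1 := Equiv.Perm.card_compl_support_modEq hτr
  have h2 : Fintype.card {x : Ω // f x = j} = a := by
    rw [← Nat.card_eq_fintype_card, hf]
  have h3 : τ.supportᶜ.card = Nat.card {x : Ω // f x = j ∧ σ x = x} := by
    rw [Nat.card_eq_fintype_card, Fintype.card_subtype]
    apply Finset.card_bij (fun x _ => x.1)
    · intro x hx
      simp only [Finset.mem_compl, Equiv.Perm.mem_support, not_not] at hx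
      simp only [Finset.mem_filter, Finset.mem_univ, true_and]
      refine ⟨x.2, ?_⟩
      have := congrArg Subtype.val hx
      simpa [hτ] using this
    · intro x _ y _ h
      exact Subtype.ext h
    · intro x hx
      simp only [Finset.mem_filter, Finset.mem_univ, true_and] at hx
      refine ⟨⟨x, hx.1⟩, ?_, rfl⟩
      simp only [Finset.mem_compl, Equiv.Perm.mem_support, not_not]
      apply Subtype.ext
      simpa [hτ] using hx.2
  rw [h2, h3] at h1
  rw [← h1]
  exact Nat.mod_le _ _

/-- sum of `fixed_in_part` over the `b - π.support.card` fixed parts. -/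
theorem fixed_le {a b r : ℕ} (hr : r.Prime) (σ : Equiv.Perm Ω) (hσ : σ ^ r = 1) (f : Ω → Fin b)
    (hf : ∀ j, Nat.card {x : Ω // f x = j} = a) (π : Equiv.Perm (Fin b))
    (hπ : ∀ x, f (σ x) = π (f x)) :
    (b - π.support.card) * (a % r) ≤ Fintype.card Ω - σ.support.card := by
  classical
  have e1 : Fintype.card Ω - σ.support.card = σ.supportᶜ.card := by
    rw [Finset.card_compl]
  have e2 : b - π.support.card = π.supportᶜ.card := by
    rw [Finset.card_compl, Fintype.card_fin]
  rw [e1, e2]
  have hsub : (σ.supportᶜ.filter (fun x : Ω => f x ∈ π.supportᶜ)) ⊆ σ.supportᶜ :=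
    Finset.filter_subset _ _
  refine le_trans ?_ (Finset.card_le_card hsub)
  rw [Finset.card_eq_sum_card_fiberwise (f := f) (t := π.supportᶜ)]
  · rw [← smul_eq_mul, ← Finset.sum_const]
    apply Finset.sum_le_sum
    intro j hj
    have hj' : π j = j := by
      simpa using hj
    refine le_trans (fixed_in_part hr σ hσ f hf π hπ j hj') ?_
    rw [Nat.card_eq_fintype_card, Fintype.card_subtype]
    apply Finset.card_le_card
    intro x hx
    simp only [Finset.mem_filter, Finset.mem_univ, true_and] at hx
    simp only [Finset.mem_filter, Finset.mem_compl, Equiv.Perm.mem_support, not_not]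
    refine ⟨⟨hx.2, ?_⟩, hx.1⟩
    rw [hx.1, hj']
  · intro x hx
    have := (Finset.mem_filter.mp hx).2
    exact this

end Cfsg.Agent.Lib.H90UpNecB
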