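import Mathlib
import Cfsg.Agent.Lib.H90UpDefs
import Cfsg.Agent.Lib.H90UpNecA
import Cfsg.Agent.Lib.H90UpNecB

set_option autoImplicit false
set_option linter.unusedSectionVars false

namespace Cfsg.Agent.Lib.H90UpNec

open Cfsg.Agent.Lib.H90UpDefs Cfsg.Agent.Lib.H90UpNecA Cfsg.Agent.Lib.H90UpNecB

/-! Row S3575, piece Nec: `t := π.support.card / r` (`r ∣ π.support.card` because `π ^ r = 1`:
`Equiv.Perm.card_compl_support_modEq`), `moved_le`, `fixed_le`. -/

variable {Ω : Type*} [Fintype Ω] [DecidableEq Ω]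

theorem nec {a b r c : ℕ} (ha : 1 ≤ a) (hr : r.Prime) (hΩ : Fintype.card Ω = a * b)
    (σ : Equiv.Perm Ω) (hσ : σ ^ r = 1) (hc : σ.support.card = r * c) (h : FixP a (Fin b) σ) :
    Good a b r c := by
  classical
  have : Fact r.Prime := ⟨hr⟩
  obtain ⟨f, hf, π, hπ⟩ := h
  have hπr : π ^ r = 1 := pi_pow ha σ hσ f hf π hπ
  have hπr' : π ^ r ^ 1 = 1 := by rwa [pow_one]
  have h1 := Equiv.Perm.card_compl_support_modEq hπr'
  have hle : π.support.card ≤ b := by
    have := Finset.card_le_univ π.support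
    rwa [Fintype.card_fin] at this
  rw [Finset.card_compl, Fintype.card_fin] at h1
  have hdvd : r ∣ π.support.card := by
    have := (Nat.modEq_iff_dvd' (Nat.sub_le _ _)).mp h1
    rwa [Nat.sub_sub_self hle] at this
  obtain ⟨t, ht⟩ := hdvd
  have hm := moved_le σ f hf π hπ
  have hx := fixed_le hr σ hσ f hf π hπ
  rw [ht] at hle hm hx
  rw [hc] at hm hx
  rw [hΩ] at hx
  refine ⟨t, hle, ?_, hx⟩
  have : r * (t * a) ≤ r * c := by
    calc r * (t * a) = a * (r * t) := by ring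
      _ ≤ r * c := hm
  exact Nat.le_of_mul_le_mul_left this hr.pos

end Cfsg.Agent.Lib.H90UpNec
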