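import Mathlib
import Cfsg.Agent.Lib.Helper92HHDefs
import Cfsg.Agent.Lib.Helper92GRDefs
import Cfsg.Prelude.Def_Solvable
import Cfsg.Agent.Lib.Helper27Rel
import Cfsg.Agent.Lib.Helper28Layer
import Cfsg.Agent.Lib.Helper30Bender

set_option autoImplicit false

namespace Cfsg.Agent.Lib.H92GRGT1c

open Polynomial Cfsg.Agent.Lib.Helper92HHDefs Cfsg.Agent.Lib.Helper92GRDefs Cfsg.Agent.Lib.Helper73HHSc
open Cfsg.Agent.Lib.Helper28Comp (NormIn Sn)
open Cfsg.Agent.Lib.Helper28Layer (fittingIn)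
open Cfsg.Agent.Lib.Helper27Rel (pcoreIn)

variable {K V : Type*} [Field K] [AddCommGroup V] [Module K V]

theorem conj_mem_of_normalizer {Γ : Type*} [Group Γ] {M : Subgroup Γ} {g : Γ}
    (hg : g ∈ Subgroup.normalizer (M : Set Γ)) {m : Γ} (hm : m ∈ M) : g * m * g⁻¹ ∈ M :=
  (Subgroup.mem_normalizer_iff.mp hg m).mp hm

theorem mem_normalizer_of_finite {Γ : Type*} [Group Γ] [Finite Γ] {M : Subgroup Γ} {g : Γ}
    (h : ∀ m ∈ M, g * m * g⁻¹ ∈ M) : g ∈ Subgroup.normalizer (M : Set Γ) := by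
  have hpow : ∀ k : ℕ, ∀ m ∈ M, g ^ k * m * (g ^ k)⁻¹ ∈ M := by
    intro k
    induction k with
    | zero => intro m hm; simpa using hm
    | succ k ih =>
      intro m hm
      have := h _ (ih m hm)
      have e : g ^ (k + 1) * m * (g ^ (k + 1))⁻¹ = g * (g ^ k * m * (g ^ k)⁻¹) * g⁻¹ := by
        rw [pow_succ']; group
      rw [e]; exact this
  have hinv : g⁻¹ = g ^ (orderOf g - 1) := by
    rw [inv_eq_iff_mul_eq_one, ← pow_succ', Nat.sub_add_cancel (orderOf_pos g), pow_orderOf_eq_one]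
  rw [Subgroup.mem_normalizer_iff]
  intro m
  refine ⟨h m, fun hm => ?_⟩
  have := hpow (orderOf g - 1) _ hm
  rw [← hinv] at this
  simpa [mul_assoc] using this

theorem conj_sup_mem {Γ : Type*} [Group Γ] {A B : Subgroup Γ} {g : Γ}
    (hA : ∀ a ∈ A, g * a * g⁻¹ ∈ A) (hB : ∀ b ∈ B, g * b * g⁻¹ ∈ B) :
    ∀ m ∈ A ⊔ B, g * m * g⁻¹ ∈ A ⊔ B := by
  have : A ⊔ B ≤ (A ⊔ B).comap (MulAut.conj g).toMonoidHom := by
    apply sup_le
    · intro a ha
      exact Subgroup.mem_sup_left (hA a ha)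
    · intro b hb
      exact Subgroup.mem_sup_right (hB b hb)
  intro m hm
  exact this hm

/-- PIECE GT1c (group theory with the team's Fitting libraries: `Helper1Fitting`, `Helper28Fitting` (`le_fitting`, `pCore_le_fitting`, `fitting_eq_iSup_pCore`), `Helper28Layer.le_fittingIn_of_sn`; see how `H92HHTrivQ` uses them).
`F` = image in `Γ` of `Cfsg.fittingSubgroup ↥H` (nilpotent, characteristic in `H`, so `x`-invariant).  Let `L, S, T` be as stated and suppose `T` centralises `O_q(H)` for every prime `q ≠ s`; we show `T ≤ F`.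
`F = P × F'`, `P = O_s(H)`, `F' = ∏_{q ≠ s} O_q(H)`.  `T⁺ = T P` is an `s`-group (`T ≤ S` normalises the normal `s`-subgroup `P`).  It is normal in `L = F' P S`: `F'` centralises `T` (hypothesis) and `P` (coprime factors of a nilpotent group commute);
`P` normalises `T P` (`y c y⁻¹ = (y c y⁻¹ c⁻¹) c ∈ P T`); `S` normalises `T` and `P`.  So `T⁺` is a nilpotent normal subgroup of `L ⊴ H`, i.e. a subnormal nilpotent subgroup of `H`: `T⁺ ≤ F(H)`
(or: all `H`-conjugates of `T⁺` are normal `s`-subgroups of `L`, they generate a normal `s`-subgroup of `H`).  Take `Q` = image of `O_q(H)` (`Cfsg.pCore q ↥H` or `⨅ Sylow`), characteristic in `H`. -/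
theorem exists_F {Γ : Type*} [Group Γ] [Finite Γ] (H : Subgroup Γ) (hsol : Group.IsSolvable H)
    (x : Γ) (hxH : ∀ h ∈ H, x * h * x⁻¹ ∈ H) :
    ∃ F : Subgroup Γ, F ≤ H ∧ (∀ h ∈ H, ∀ f ∈ F, h * f * h⁻¹ ∈ F) ∧ (∀ f ∈ F, x * f * x⁻¹ ∈ F) ∧
      Group.IsNilpotent F ∧
      ∀ (s : ℕ) (L S T : Subgroup Γ), s.Prime → F ≤ L → L ≤ H → (∀ h ∈ H, ∀ l ∈ L, h * l * h⁻¹ ∈ L) →
        IsPGroup s S → S ≤ L → (∀ l ∈ L, ∃ f ∈ F, ∃ a ∈ S, l = f * a) → T ≤ S →
        (∀ a ∈ S, ∀ c ∈ T, a * c * a⁻¹ ∈ T) → ¬ T ≤ F →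
        ∃ (q : ℕ) (Q : Subgroup Γ), q.Prime ∧ q ≠ s ∧ Q ≤ H ∧ IsPGroup q Q ∧
          (∀ h ∈ H, ∀ u ∈ Q, h * u * h⁻¹ ∈ Q) ∧ (∀ u ∈ Q, x * u * x⁻¹ ∈ Q) ∧
          ∃ c ∈ T, ∃ u ∈ Q, ¬ Commute c u := by
  classical
  have hxN : x ∈ Subgroup.normalizer (H : Set Γ) := mem_normalizer_of_finite hxH
  refine ⟨fittingIn H, Helper28Layer.fittingIn_le H, ?_, ?_, Helper28Layer.fittingIn_isNilpotent H, ?_⟩
  · intro h hh f hf
    exact conj_mem_of_normalizer ((Helper28Layer.fittingIn_normIn H).2 hh) hf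
  · intro f hf
    exact conj_mem_of_normalizer (Helper28Layer.normalizer_le_normalizer_fittingIn H hxN) hf
  intro s L S T hs hFL hLH hLn hS hSL hLFS hTS hST hTF
  have : Fact s.Prime := ⟨hs⟩
  by_contra hcon
  push Not at hcon
  apply hTF
  -- `T` centralises `O_q(H)` for `q ≠ s`
  have hcent : ∀ q : ℕ, q.Prime → q ≠ s → ∀ c ∈ T, ∀ u ∈ pcoreIn q H, Commute c u := by
    intro q hq hqs
    have : Fact q.Prime := ⟨hq⟩
    exact hcon q (pcoreIn q H) hq hqs (Helper27Rel.pcoreIn_le H) (Helper27Rel.pcoreIn_isPGroup H)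
      (fun h hh u hu => conj_mem_of_normalizer ((Helper27Rel.pcoreIn_normIn H).2 hh) hu)
      (fun u hu => conj_mem_of_normalizer (Helper27Rel.normalizer_le_normalizer_pcoreIn H hxN) hu)
  set P := pcoreIn s H with hP
  have hPp : IsPGroup s P := Helper27Rel.pcoreIn_isPGroup H
  have hPn : NormIn P H := Helper27Rel.pcoreIn_normIn H
  have hPF : P ≤ fittingIn H := Helper28Layer.le_fittingIn hPn hPp.isNilpotent
  have hTH : T ≤ H := hTS.trans (hSL.trans hLH)
  have hTP : IsPGroup s (T ⊔ P : Subgroup Γ) :=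
    IsPGroup.to_sup_of_normal_right' (hS.to_le hTS) hPp (hTH.trans hPn.2)
  have hnorm : NormIn (T ⊔ P) L := by
    refine ⟨sup_le (hTS.trans hSL) (hPF.trans hFL), ?_⟩
    have hFN : fittingIn H ≤ Subgroup.normalizer ((T ⊔ P : Subgroup Γ) : Set Γ) := by
      rw [← Helper28Layer.map_fitting]
      apply Helper30Bender.fittingOf_le_of_forall
      intro q hq D hDH hDn hDq
      have : Fact q.Prime := ⟨hq⟩
      by_cases hqs : q = s
      · subst hqs
        exact ((Helper27Rel.le_pcoreIn ⟨hDH, hDn⟩ hDq).trans le_sup_right).trans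
          Subgroup.le_normalizer
      · refine le_trans ?_ (Subgroup.centralizer_le_normalizer _)
        rw [Subgroup.le_centralizer_iff]
        apply sup_le
        · intro c hc
          rw [Subgroup.mem_centralizer_iff]
          intro d hd
          exact ((hcent q hq hqs c hc d (Helper27Rel.le_pcoreIn ⟨hDH, hDn⟩ hDq hd)).eq).symm
        · intro y hy
          rw [Subgroup.mem_centralizer_iff]
          intro d hd
          have hdisj : Disjoint D P := IsPGroup.disjoint_of_ne q s hqs D P hDq hPp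
          have h1 : d * y * d⁻¹ * y⁻¹ ∈ P :=
            P.mul_mem (conj_mem_of_normalizer (hPn.2 (hDH hd)) hy) (P.inv_mem hy)
          have h2 : d * y * d⁻¹ * y⁻¹ ∈ D := by
            have h3 := conj_mem_of_normalizer (hDn (hPn.1 hy)) (D.inv_mem hd)
            have h4 := D.mul_mem hd h3
            have e : d * y * d⁻¹ * y⁻¹ = d * (y * d⁻¹ * y⁻¹) := by group
            rw [e]; exact h4
          have h5 : d * y * d⁻¹ * y⁻¹ = 1 := by
            have := (Subgroup.disjoint_def.mp hdisj) h2 h1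
            exact this
          rw [mul_inv_eq_one, mul_inv_eq_iff_eq_mul] at h5
          exact h5
    intro l hl
    obtain ⟨f, hf, a, ha, rfl⟩ := hLFS l hl
    apply Subgroup.mul_mem _ (hFN hf)
    apply mem_normalizer_of_finite
    apply conj_sup_mem (hST a ha)
    intro b hb
    exact conj_mem_of_normalizer (hPn.2 (hLH (hSL ha))) hb
  have hLnorm : NormIn L H := ⟨hLH, fun h hh => mem_normalizer_of_finite (hLn h hh)⟩
  have hfin := Helper27Rel.sn_le_pcoreIn (hnorm.sn.trans hLnorm.sn) hTP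
  exact (le_sup_left.trans hfin).trans hPF

end Cfsg.Agent.Lib.H92GRGT1c
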