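import Mathlib
import Cfsg.Agent.Lib.Helper92HHDefs
import Cfsg.Agent.Lib.Helper30Bender
import Cfsg.Agent.Lib.Helper27Rel

set_option autoImplicit false

namespace Cfsg.Agent.Lib.H92HHTrivQ

open Polynomial Cfsg.Agent.Lib.Helper92HHDefs

/-- PIECE TrivQ (pure group theory).  `H` solvable, normalised by the `p`-element `x` with `C_H(x) = 1` (so `p ∤ |H|`).  If `τ = x^(p^(n-1))` does not centralise `H`, it does not centralise `O_q(H)` for some prime `q ≠ p`.
Proof: `F = F(H)` satisfies `C_H(F) ≤ F` (`H` solvable; libs: Helper1Fitting, Helper28Fitting, `fitting_eq_iSup_pCore`).  If `τ` centralises `F`: three subgroups lemma (`[F,τ]=1`, `[F,H,τ] ≤ [F,τ] = 1`) gives `[H,τ] ≤ C_H(F) ≤ F`, so `[H,τ,τ] = 1`;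
then for `h ∈ H`: `τ h τ⁻¹ = c h` with `c` commuting with `τ`, `c^p = 1` (`τ^p = 1`), `c = 1` since `p ∤ |H|`.  So `τ` does not centralise `F = ⨆_q O_q(H)`. -/
theorem exists_q {Γ : Type*} [Group Γ] [Finite Γ] (p n : ℕ) [Fact p.Prime] (hn : 1 ≤ n) (x : Γ)
    (hx : x ^ p ^ n = 1) (H : Subgroup Γ) (hsol : Group.IsSolvable H)
    (hxH : ∀ h ∈ H, x * h * x⁻¹ ∈ H) (hHx : ∀ h ∈ H, Commute x h → h = 1)
    (hne : ∃ h ∈ H, ¬ Commute (x ^ p ^ (n - 1)) h) :
    ∃ (q : ℕ) (Q : Subgroup Γ), q.Prime ∧ q ≠ p ∧ Q ≤ H ∧ IsPGroup q Q ∧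
      (∀ u ∈ Q, x * u * x⁻¹ ∈ Q) ∧ (∀ h ∈ H, ∀ u ∈ Q, h * u * h⁻¹ ∈ Q) ∧
      ∃ u ∈ Q, ¬ Commute (x ^ p ^ (n - 1)) u := by
  classical
  by_contra hcon
  push Not at hcon
  set τ := x ^ p ^ (n - 1) with hτ
  have hp : p.Prime := Fact.out
  -- `x` normalizes `H`
  have hxpow : ∀ i : ℕ, ∀ h ∈ H, x ^ i * h * (x ^ i)⁻¹ ∈ H := by
    intro i
    induction i with
    | zero => intro c hc; simpa using hc
    | succ i ih =>
      intro c hc
      have := hxH _ (ih c hc)
      have e : x ^ (i + 1) * c * (x ^ (i + 1))⁻¹ = x * (x ^ i * c * (x ^ i)⁻¹) * x⁻¹ := by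
        rw [pow_succ']; group
      rw [e]; exact this
  have hxinv : x⁻¹ = x ^ (p ^ n - 1) := by
    rw [inv_eq_iff_mul_eq_one, ← pow_succ']
    have h0 : 0 < p ^ n := pow_pos hp.pos n
    rw [Nat.sub_add_cancel h0, hx]
  have hxN : x ∈ Subgroup.normalizer (H : Set Γ) := by
    rw [Subgroup.mem_normalizer_iff]
    intro h
    refine ⟨hxH h, fun hh => ?_⟩
    have := hxpow (p ^ n - 1) _ hh
    rw [← hxinv] at this
    simpa [mul_assoc] using this
  -- `p ∤ |H|`
  have hpH : ¬ p ∣ Nat.card H := by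
    let σ : MulAut H := H.normalizerMonoidHom ⟨x, hxN⟩
    have hσpow : σ ^ p ^ n = 1 := by
      show (H.normalizerMonoidHom ⟨x, hxN⟩) ^ p ^ n = 1
      rw [← map_pow]
      have : (⟨x, hxN⟩ : Subgroup.normalizer (H : Set Γ)) ^ p ^ n = 1 :=
        Subtype.ext (by simpa using hx)
      rw [this, map_one]
    have hZ : IsPGroup p (Subgroup.zpowers σ) := by
      have h1 : orderOf σ ∣ p ^ n := orderOf_dvd_of_pow_eq_one hσpow
      obtain ⟨k, _, hk⟩ := (Nat.dvd_prime_pow hp).mp h1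
      apply IsPGroup.of_card (n := k)
      rw [Nat.card_zpowers, hk]
    have h2 := hZ.card_modEq_card_fixedPoints H
    have h3 : MulAction.fixedPoints (Subgroup.zpowers σ) H = {1} := by
      ext g
      constructor
      · intro hg
        have h4 : σ g = g := hg ⟨σ, Subgroup.mem_zpowers σ⟩
        have h5 : x * (g : Γ) * x⁻¹ = g := congrArg Subtype.val h4
        have h6 : Commute x (g : Γ) := by
          show x * (g : Γ) = g * x
          rw [← mul_inv_eq_iff_eq_mul]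
          exact h5
        exact Subtype.ext (hHx g g.2 h6)
      · intro hg
        rw [Set.mem_singleton_iff] at hg
        subst hg
        intro z
        exact map_one z.1
    rw [h3] at h2
    intro hdvd
    have h7 : Nat.card (({1} : Set H)) = 1 := by simp
    rw [h7] at h2
    have h8 : 0 % p = 1 % p := (Nat.modEq_zero_iff_dvd.mpr hdvd).symm.trans h2
    rw [Nat.zero_mod, Nat.mod_eq_of_lt hp.one_lt] at h8
    exact absurd h8 (by norm_num)
  -- `τ` centralizes `F(H)`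
  have hF : Cfsg.fittingOf H ≤ Subgroup.centralizer ({τ} : Set Γ) := by
    apply Cfsg.Agent.Lib.Helper30Bender.fittingOf_le_of_forall
    intro r hr D hDH hDn hDr
    have : Fact r.Prime := ⟨hr⟩
    by_cases hrp : r = p
    · subst hrp
      have hD : D = ⊥ := by
        obtain ⟨k, hk⟩ := hDr.exists_card_eq
        have h1 : Nat.card D ∣ Nat.card H := Subgroup.card_dvd_of_le hDH
        rcases Nat.eq_zero_or_pos k with h0 | h0
        · subst h0
          rw [pow_zero] at hk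
          exact Subgroup.eq_bot_of_card_eq D hk
        · exfalso
          apply hpH
          refine dvd_trans ?_ h1
          rw [hk]
          exact dvd_pow_self _ h0.ne'
      rw [hD]
      exact bot_le
    · have h1 : D ≤ Cfsg.Agent.Lib.Helper27Rel.pcoreIn r H :=
        Cfsg.Agent.Lib.Helper27Rel.le_pcoreIn ⟨hDH, hDn⟩ hDr
      have h2 := hcon r (Cfsg.Agent.Lib.Helper27Rel.pcoreIn r H) hr hrp
        (Cfsg.Agent.Lib.Helper27Rel.pcoreIn_le H) (Cfsg.Agent.Lib.Helper27Rel.pcoreIn_isPGroup H)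
        (by
          intro u hu
          have h3 := Cfsg.Agent.Lib.Helper27Rel.normalizer_le_normalizer_pcoreIn (p := r) H hxN
          exact (Subgroup.mem_normalizer_iff.mp h3 u).mp hu)
        (by
          intro h hh u hu
          have h3 := (Cfsg.Agent.Lib.Helper27Rel.pcoreIn_normIn (p := r) H).2 hh
          exact (Subgroup.mem_normalizer_iff.mp h3 u).mp hu)
      intro d hd
      rw [Subgroup.mem_centralizer_singleton_iff]
      exact (h2 d (h1 hd)).eq.symm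
  have hFτ : ∀ f ∈ Cfsg.fittingOf H, Commute τ f := by
    intro f hf
    have := hF hf
    rw [Subgroup.mem_centralizer_singleton_iff] at this
    exact this.symm
  have hτp : τ ^ p = 1 := by
    rw [hτ, ← pow_mul, ← pow_succ, Nat.sub_add_cancel hn, hx]
  have hτH : ∀ h ∈ H, τ * h * τ⁻¹ ∈ H := fun h hh => hxpow _ h hh
  obtain ⟨h, hh, hnc⟩ := hne
  apply hnc
  -- the commutator
  have hcH : τ * h * τ⁻¹ * h⁻¹ ∈ H := H.mul_mem (hτH h hh) (H.inv_mem hh)
  have hcC : τ * h * τ⁻¹ * h⁻¹ ∈ Subgroup.centralizer ((Cfsg.fittingOf H : Subgroup Γ) : Set Γ) := by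
    rw [Subgroup.mem_centralizer_iff]
    intro f hf
    have hN := Cfsg.Agent.Lib.Helper30Bender.le_normalizer_fittingOf H (H.inv_mem hh)
    have hf1 : h⁻¹ * f * h⁻¹⁻¹ ∈ Cfsg.fittingOf H := (Subgroup.mem_normalizer_iff.mp hN f).mp hf
    rw [inv_inv] at hf1
    have e1 : τ * (h⁻¹ * f * h) = (h⁻¹ * f * h) * τ := (hFτ _ hf1).eq
    have e2 : τ * f = f * τ := (hFτ _ hf).eq
    -- `f * c = c * f`
    have e3 : τ⁻¹ * (h⁻¹ * f * h) = (h⁻¹ * f * h) * τ⁻¹ := ((hFτ _ hf1).inv_left).eq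
    calc f * (τ * h * τ⁻¹ * h⁻¹) = (f * τ) * h * τ⁻¹ * h⁻¹ := by group
      _ = τ * f * h * τ⁻¹ * h⁻¹ := by rw [← e2]
      _ = τ * h * ((h⁻¹ * f * h) * τ⁻¹) * h⁻¹ := by group
      _ = τ * h * (τ⁻¹ * (h⁻¹ * f * h)) * h⁻¹ := by rw [e3]
      _ = τ * h * τ⁻¹ * h⁻¹ * f := by group
  have hcF : τ * h * τ⁻¹ * h⁻¹ ∈ Cfsg.fittingOf H :=
    Cfsg.Agent.Lib.Helper30Bender.inf_centralizer_fittingOf_le hsol ⟨hcH, hcC⟩
  have hcτ : Commute τ (τ * h * τ⁻¹ * h⁻¹) := hFτ _ hcF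
  set c := τ * h * τ⁻¹ * h⁻¹ with hc
  have hpowc : ∀ k : ℕ, τ ^ k * h * (τ ^ k)⁻¹ = c ^ k * h := by
    intro k
    induction k with
    | zero => simp
    | succ k ih =>
      have e : τ ^ (k + 1) * h * (τ ^ (k + 1))⁻¹ = τ * (τ ^ k * h * (τ ^ k)⁻¹) * τ⁻¹ := by
        rw [pow_succ']; group
      rw [e, ih]
      have e2 : τ * c ^ k = c ^ k * τ := (hcτ.pow_right k).eq
      calc τ * (c ^ k * h) * τ⁻¹ = (τ * c ^ k) * h * τ⁻¹ := by group
        _ = c ^ k * (τ * h * τ⁻¹ * h⁻¹) * h := by rw [e2]; group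
        _ = c ^ (k + 1) * h := by rw [← hc, pow_succ]
  have hcp : c ^ p = 1 := by
    have := hpowc p
    rw [hτp] at this
    simpa using this.symm
  have hc1 : c = 1 := by
    have h1 : orderOf c ∣ p := orderOf_dvd_of_pow_eq_one hcp
    have h2 : orderOf c ∣ Nat.card H := by
      have : orderOf (⟨c, hcH⟩ : H) = orderOf c := Subgroup.orderOf_mk c hcH
      rw [← this]
      exact orderOf_dvd_natCard _
    rcases (Nat.dvd_prime hp).mp h1 with h3 | h3
    · exact orderOf_eq_one_iff.mp h3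
    · exact absurd (h3 ▸ h2) hpH
  show τ * h = h * τ
  have : τ * h * τ⁻¹ * h⁻¹ = 1 := hc1
  rw [mul_inv_eq_one, mul_inv_eq_iff_eq_mul] at this
  exact this

end Cfsg.Agent.Lib.H92HHTrivQ
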