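import Mathlib
import Cfsg.Agent.Lib.Helper92HHDefs
import Cfsg.Agent.Lib.H92HHTrivQ
import Cfsg.Agent.Lib.H92HHLin
import Cfsg.Agent.Lib.H92HHKey

set_option autoImplicit false

namespace Cfsg.Agent.Lib.H92HHTrivH

open Polynomial Cfsg.Agent.Lib.Helper92HHDefs

theorem conj_pow_mem' {Γ : Type*} [Group Γ] {Q : Subgroup Γ} {X : Γ}
    (h : ∀ u ∈ Q, X * u * X⁻¹ ∈ Q) (k : ℕ) : ∀ u ∈ Q, X ^ k * u * (X ^ k)⁻¹ ∈ Q := by
  induction k with
  | zero => intro u hu; simpa using hu
  | succ k ih =>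
    intro u hu
    have := h _ (ih u hu)
    have e : X ^ (k + 1) * u * (X ^ (k + 1))⁻¹ = X * (X ^ k * u * (X ^ k)⁻¹) * X⁻¹ := by
      rw [pow_succ']; group
    rw [e]; exact this

/-- the norm of `v` is fixed by `x`. -/
theorem norm_fixed {A : Type*} [CommGroup A] (x : MulAut A) (N : ℕ) (hx : x ^ N = 1) (v : A) :
    x (∏ i ∈ Finset.range N, (x ^ i) v) = ∏ i ∈ Finset.range N, (x ^ i) v := by
  rw [map_prod]
  have h1 : ∀ i, x ((x ^ i) v) = (x ^ (i + 1)) v := by
    intro i
    rw [pow_succ']; rfl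
  simp only [h1]
  have h2 := Finset.prod_range_succ' (fun i => (x ^ i) v) N
  have h3 := Finset.prod_range_succ (fun i => (x ^ i) v) N
  rw [h3] at h2
  simp only [hx, pow_zero] at h2
  exact (mul_right_cancel h2).symm

/-- PIECE TrivH.  The heart of Shult-Gross: on an irreducible module the element `τ = x^(p^(n-1))` centralises `H`.
Suppose not; `TrivQ.exists_q` (`Γ = MulAut A`, finite) gives `Q ⊴ H`, an `x`-invariant `q`-group, `q ≠ p`, not centralised by `τ`.  `q ≠ r`: otherwise the fixed points `C_A(Q) ≠ 1` (a `r`-group acting on a nontrivial `r`-group) form a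
subgroup invariant under `H` and `x`, so `C_A(Q) = A`, `Q = 1` (model: `Helper66Ward8.Op_eq_bot`).  Let `K = AlgebraicClosure (ZMod r)`, `L` from `Lin.exists_lin`; `(q : K) ≠ 0`.  `Key.key_fpf` for `Q.map L`, `X = L x`
(`hfpf` from `hHx` and injectivity of `L`) gives `minDegOn (L x) ⊤ (p^n)`.  The polynomial `f = ∑_{i<p^n} T^i` is nonzero of degree `p^n - 1 < p^n`, so `∑ (L x)^i = f(L x) ≠ 0`; by the last clause of `exists_lin` there is `v` with
`w = ∏_{i<p^n} x^i v ≠ 1`; but `x w = w` (`x^(p^n) = 1`, shift the product), against `hAx`. -/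
theorem trivH (p r n : ℕ) [Fact p.Prime] [Fact r.Prime] (hp2 : p ≠ 2) (hn : 1 ≤ n) (A : Type*)
    [CommGroup A] [Finite A] [Nontrivial A] (hA : ∀ x : A, x ^ r = 1) (x : MulAut A)
    (hx : x ^ p ^ n = 1) (H : Subgroup (MulAut A)) (hsol : Group.IsSolvable H)
    (hxH : ∀ h ∈ H, x * h * x⁻¹ ∈ H) (hHx : ∀ h ∈ H, Commute x h → h = 1)
    (hAx : ∀ v : A, x v = v → v = 1)
    (hirr : ∀ U : Subgroup A, (∀ h ∈ H, ∀ u ∈ U, h u ∈ U) → (∀ u ∈ U, x u ∈ U) → U = ⊥ ∨ U = ⊤) :
    ∀ h ∈ H, Commute (x ^ p ^ (n - 1)) h := by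
  by_contra hne
  push Not at hne
  have hfinAut : Finite (MulAut A) :=
    Finite.of_injective (fun f : MulAut A => (f : A → A)) DFunLike.coe_injective
  obtain ⟨q, Q, hqp, hqne, hQH, hQp, hxQ, hHQ, u, hu, hcu⟩ :=
    H92HHTrivQ.exists_q p n hn x hx H hsol hxH hHx hne
  have hqF : Fact q.Prime := ⟨hqp⟩
  have hppos : 0 < p ^ n := pow_pos (Fact.out : p.Prime).pos _
  have hxinv : x⁻¹ = x ^ (p ^ n - 1) := by
    rw [inv_eq_iff_mul_eq_one, ← pow_succ', Nat.sub_add_cancel hppos, hx]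
  have hxQ' : ∀ g ∈ Q, x⁻¹ * g * x ∈ Q := by
    intro g hg
    have h := conj_pow_mem' hxQ (p ^ n - 1) g hg
    rwa [← hxinv, inv_inv] at h
  -- `q ≠ r`
  have hqr : q ≠ r := by
    rintro rfl
    let C : Subgroup A :=
      { carrier := {a | ∀ g ∈ Q, g a = a}
        mul_mem' := fun {a b} ha hb g hg => by rw [map_mul, ha g hg, hb g hg]
        one_mem' := fun g _ => map_one g
        inv_mem' := fun {a} ha g hg => by rw [map_inv, ha g hg] }
    have hCH : ∀ h ∈ H, ∀ a ∈ C, h a ∈ C := by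
      intro h hh a ha g hg
      have h1 := hHQ h⁻¹ (H.inv_mem hh) g hg
      rw [inv_inv] at h1
      have h2 := ha _ h1
      have h3 : (h⁻¹ * g * h) a = h⁻¹ (g (h a)) := rfl
      rw [h3] at h2
      have h4 := congrArg h h2
      rwa [MulAut.apply_inv_self] at h4
    have hCx : ∀ a ∈ C, x a ∈ C := by
      intro a ha g hg
      have h2 := ha _ (hxQ' g hg)
      have h3 : (x⁻¹ * g * x) a = x⁻¹ (g (x a)) := rfl
      rw [h3] at h2
      have h4 := congrArg x h2
      rwa [MulAut.apply_inv_self] at h4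
    have hdvd : q ∣ Nat.card A := by
      obtain ⟨a, ha⟩ := exists_ne (1 : A)
      have : orderOf a = q := orderOf_eq_prime (hA a) ha
      rw [← this]
      exact orderOf_dvd_natCard a
    have hone : (1 : A) ∈ MulAction.fixedPoints ↥Q A := fun g => map_one (g : MulAut A)
    obtain ⟨b, hb, hb1⟩ := hQp.exists_fixed_point_of_prime_dvd_card_of_fixed_point A hdvd hone
    have hbC : b ∈ C := fun g hg => hb ⟨g, hg⟩
    rcases hirr C hCH hCx with h | h
    · rw [h, Subgroup.mem_bot] at hbC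
      exact hb1 hbC.symm
    · apply hcu
      have : u = 1 := by
        ext a
        have : a ∈ C := h ▸ Subgroup.mem_top a
        exact this u hu
      rw [this]
      exact Commute.one_right _
  obtain ⟨d, L, hLinj, hLsum⟩ := H92HHLin.exists_lin r A hA (AlgebraicClosure (ZMod r))
  have hqK : (q : AlgebraicClosure (ZMod r)) ≠ 0 := by
    intro h0
    rw [CharP.cast_eq_zero_iff (AlgebraicClosure (ZMod r)) r q] at h0
    exact hqr ((Nat.prime_dvd_prime_iff_eq (Fact.out : r.Prime) hqp).1 h0).symm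
  have hfinQ : Finite ↥(Q.map L) := by
    have hs : (L '' (Q : Set (MulAut A))).Finite := (Set.toFinite (Q : Set (MulAut A))).image L
    exact hs.to_subtype
  have hmin := H92HHKey.key_fpf p q n hp2 hqne.symm hqK (Q.map L) (hQp.map L) (L x)
    (by
      rintro _ ⟨g, hg, rfl⟩
      exact ⟨x * g * x⁻¹, hxQ g hg, by simp⟩)
    (by rw [← map_pow, hx, map_one]) hn
    ⟨L u, ⟨u, hu, rfl⟩, fun hc => hcu (by
      apply hLinj
      rw [map_mul, map_mul, map_pow]
      exact hc)⟩
    (by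
      rintro _ ⟨g, hg, rfl⟩ hc
      have : Commute x g := by
        apply hLinj
        rw [map_mul, map_mul]
        exact hc
      rw [hHx g (hQH hg) this, map_one])
  have hsum := hLsum x (p ^ n) (fun v => hAx _ (norm_fixed x (p ^ n) hx v))
  have hmon : (∑ i ∈ Finset.range (p ^ n), (X : (AlgebraicClosure (ZMod r))[X]) ^ i).Monic :=
    Polynomial.monic_geom_sum_X hppos.ne'
  have hdeg : (∑ i ∈ Finset.range (p ^ n), (X : (AlgebraicClosure (ZMod r))[X]) ^ i).natDegree
      ≤ p ^ n - 1 := by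
    apply Polynomial.natDegree_sum_le_of_forall_le
    intro i hi
    rw [Polynomial.natDegree_X_pow]
    have := Finset.mem_range.1 hi
    omega
  have := hmin _ hmon.ne_zero (fun w _ => by
    rw [map_sum]
    simp only [map_pow, aeval_X]
    rw [hsum]
    rfl)
  omega

end Cfsg.Agent.Lib.H92HHTrivH
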