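import Cfsg.Agent.Lib.Helper98CritDefs

/-! PROJECT 3599, piece Abs1 (90m), pure Mathlib. -/
namespace Cfsg.Agent.Lib.H98CritAbs1
open Cfsg.Agent.Lib.Helper98CritDefs

/-- every power `y^i`, `q ∤ i`, is also fixed point free on `V`. -/
theorem fix_pow {F : Type*} [Group F] {p q : ℕ} (hq : q.Prime) (V : Subgroup F) (y : F) (h : Raw p q V y)
    (i : ℕ) (hi : ¬ q ∣ i) (v : F) (hv : v ∈ V) (hf : y ^ i * v * (y ^ i)⁻¹ = v) : v = 1 := by
  have hcop : Nat.Coprime i q := ((Nat.Prime.coprime_iff_not_dvd hq).2 hi).symm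
  obtain ⟨m, -, hm⟩ := Nat.exists_mul_mod_eq_one_of_coprime hcop hq.one_lt
  have hy : (y ^ i) ^ m = y := by
    rw [← pow_mul, ← pow_mod_orderOf, h.order, hm, pow_one]
  have hc : Commute (y ^ i) v := by
    have : y ^ i * v = v * y ^ i := by
      calc y ^ i * v = y ^ i * v * (y ^ i)⁻¹ * y ^ i := by group
        _ = v * y ^ i := by rw [hf]
    exact this
  have hc2 : Commute y v := by
    have := hc.pow_left m
    rwa [hy] at this
  apply h.fix v hv
  rw [hc2.eq, mul_assoc, mul_inv_cancel, mul_one]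

theorem y_not_mem {F : Type*} [Group F] {p q : ℕ} (hq : q.Prime) (V : Subgroup F) (y : F)
    (h : Raw p q V y) : y ∉ V := by
  intro hy
  have h1 : y = 1 := h.fix y hy (by group)
  have h2 := h.order
  rw [h1, orderOf_one] at h2
  exact hq.one_lt.ne h2

/-- every element is `v y^i`. -/
theorem exists_eq {F : Type*} [Group F] [Finite F] {p q : ℕ} (hq : q.Prime) (V : Subgroup F) [V.Normal] (y : F)
    (h : Raw p q V y) (hi : V.index = q) (x : F) : ∃ v ∈ V, ∃ i : ℕ, x = v * y ^ i ∧ (x ∈ V ↔ q ∣ i) := by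
  haveI : Fact q.Prime := ⟨hq⟩
  have hcard : Nat.card (F ⧸ V) = q := hi
  have hy1 : (QuotientGroup.mk y : F ⧸ V) ≠ 1 := by
    rw [Ne, QuotientGroup.eq_one_iff]
    exact y_not_mem hq V y h
  have htop := zpowers_eq_top_of_prime_card hcard hy1
  have hx : (QuotientGroup.mk x : F ⧸ V) ∈ Subgroup.zpowers (QuotientGroup.mk y : F ⧸ V) := by
    rw [htop]; exact Subgroup.mem_top _
  rw [← mem_powers_iff_mem_zpowers] at hx
  obtain ⟨i, hi'⟩ := hx
  have hv : x * (y ^ i)⁻¹ ∈ V := by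
    rw [← QuotientGroup.eq_one_iff (N := V), QuotientGroup.mk_mul, QuotientGroup.mk_inv,
      QuotientGroup.mk_pow]
    simp only at hi'
    rw [hi', mul_inv_cancel]
  have hord : orderOf (QuotientGroup.mk y : F ⧸ V) = q := by
    have h1 : orderOf (QuotientGroup.mk y : F ⧸ V) ∣ q := by
      rw [← hcard]; exact orderOf_dvd_natCard _
    rcases (Nat.dvd_prime hq).1 h1 with h2 | h2
    · exact absurd (orderOf_eq_one_iff.1 h2) hy1
    · exact h2
  refine ⟨x * (y ^ i)⁻¹, hv, i, by group, ?_⟩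
  rw [← QuotientGroup.eq_one_iff (N := V), ← hi', ← hord]
  exact (orderOf_dvd_iff_pow_eq_one).symm

/-- Elements outside `V` have order `q`. -/
theorem orderOf_of_not_mem {F : Type*} [Group F] [Finite F] {p q : ℕ} (hq : q.Prime) (V : Subgroup F) [V.Normal]
    (y : F) (h : Raw p q V y) (hi : V.index = q) (x : F) (hx : x ∉ V) : orderOf x = q := by
  haveI : Fact q.Prime := ⟨hq⟩
  obtain ⟨v, hv, i, hxe, hiff⟩ := exists_eq hq V y h hi x
  have hqi : ¬ q ∣ i := fun hd => hx (hiff.2 hd)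
  have hcard : Nat.card (F ⧸ V) = q := hi
  have hw : x ^ q ∈ V := by
    rw [← QuotientGroup.eq_one_iff (N := V), QuotientGroup.mk_pow, ← hcard]
    exact pow_card_eq_one'
  have hz : y ^ i = v⁻¹ * x := by rw [hxe]; group
  have c1 : Commute x (x ^ q) := (Commute.refl x).pow_right q
  have c2 : Commute v (x ^ q) := h.comm v hv _ hw
  have c3 : Commute (y ^ i) (x ^ q) := by
    rw [hz]
    exact c2.inv_left.mul_left c1
  have hw1 : x ^ q = 1 := by
    apply fix_pow hq V y h i hqi _ hw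
    rw [c3.eq, mul_assoc, mul_inv_cancel, mul_one]
  apply orderOf_eq_prime hw1
  intro h1
  exact hx (h1 ▸ V.one_mem)

end Cfsg.Agent.Lib.H98CritAbs1
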