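import Cfsg.Agent.Lib.H98CritAbs1

/-! PROJECT 3599, piece Abs2 (90m), pure Mathlib. -/
namespace Cfsg.Agent.Lib.H98CritAbs2
open Cfsg.Agent.Lib.Helper98CritDefs

theorem conj_eq {F : Type*} [Group F] {p q : ℕ} (V : Subgroup F) (hn : V.Normal) (y : F) (h : Raw p q V y)
    {v w : F} (hv : v ∈ V) (hw : w ∈ V) (z : F) : (v * z) * w * (v * z)⁻¹ = z * w * z⁻¹ := by
  have h1 : z * w * z⁻¹ ∈ V := hn.conj_mem w hw z
  have h2 := h.comm v hv _ h1
  calc (v * z) * w * (v * z)⁻¹ = v * (z * w * z⁻¹) * v⁻¹ := by group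
    _ = z * w * z⁻¹ := by rw [h2]; group

theorem inv_pow {F : Type*} [Group F] (U : Subgroup F) (z : F) (hz : ∀ u ∈ U, z * u * z⁻¹ ∈ U) (m : ℕ) :
    ∀ u ∈ U, z ^ m * u * (z ^ m)⁻¹ ∈ U := by
  induction m with
  | zero => intro u hu; simpa using hu
  | succ k ih =>
    intro u hu
    have := hz _ (ih u hu)
    have e : z ^ (k + 1) * u * (z ^ (k + 1))⁻¹ = z * (z ^ k * u * (z ^ k)⁻¹) * z⁻¹ := by
      rw [pow_succ']; group
    rw [e]; exact this

theorem exists_pow {F : Type*} [Group F] {p q : ℕ} (hq : q.Prime) (V : Subgroup F) (y : F) (h : Raw p q V y)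
    (i : ℕ) (hi : ¬ q ∣ i) : ∃ m : ℕ, (y ^ i) ^ m = y := by
  have hcop : Nat.Coprime i q := ((Nat.Prime.coprime_iff_not_dvd hq).2 hi).symm
  obtain ⟨m, -, hm⟩ := Nat.exists_mul_mod_eq_one_of_coprime hcop hq.one_lt
  exact ⟨m, by rw [← pow_mul, ← pow_mod_orderOf, h.order, hm, pow_one]⟩

/-- `IsCrit` from the raw data. -/
theorem isCrit {F : Type*} [Group F] [Finite F] {p q : ℕ} (hp : p.Prime) (hq : q.Prime) (hpq : p ≠ q)
    (V : Subgroup F) (hn : V.Normal) (y : F) (h : Raw p q V y) (hi : V.index = q)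
    (hirr : ∀ U : Subgroup F, U ≤ V → U ≠ ⊥ → (∀ u ∈ U, y * u * y⁻¹ ∈ U) → U = V) : IsCrit p q V := by
  haveI := hn
  have hout := H98CritAbs1.orderOf_of_not_mem hq V y h hi
  refine ⟨hn, ?_, h.ne_bot, hi, ?_, ?_, ?_⟩
  · intro x
    refine ⟨1, ?_⟩
    apply Subtype.ext
    rw [pow_one, Subgroup.coe_pow, Subgroup.coe_one]
    exact h.exp x x.2
  · intro x
    by_cases hx : x ∈ V
    · have h1 : orderOf x ∣ p := orderOf_dvd_of_pow_eq_one (h.exp x hx)
      rcases (Nat.dvd_prime hp).1 h1 with h2 | h2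
      · left; exact h2
      · right; left; exact h2
    · right; right; exact hout x hx
  · rintro H ⟨x, hxH, hxo⟩ ⟨y', hyH, hyo⟩
    have hxV : x ∈ V := by
      by_contra hx
      exact hpq (hxo.symm.trans (hout x hx))
    have hyV : y' ∉ V := by
      intro hy
      have h1 : orderOf y' ∣ p := orderOf_dvd_of_pow_eq_one (h.exp y' hy)
      rw [hyo] at h1
      exact hpq ((Nat.prime_dvd_prime_iff_eq hq hp).1 h1).symm
    obtain ⟨v, hv, i, hye, hiff⟩ := H98CritAbs1.exists_eq hq V y h hi y'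
    have hqi : ¬ q ∣ i := fun hd => hyV (hiff.2 hd)
    obtain ⟨m, hm⟩ := exists_pow hq V y h i hqi
    have hx1 : x ≠ 1 := by
      intro h1
      rw [h1, orderOf_one] at hxo
      exact hp.one_lt.ne hxo
    have hU : H ⊓ V = V := by
      apply hirr _ inf_le_right
      · intro hb
        have : x ∈ H ⊓ V := ⟨hxH, hxV⟩
        rw [hb, Subgroup.mem_bot] at this
        exact hx1 this
      · have hz : ∀ u ∈ H ⊓ V, y ^ i * u * (y ^ i)⁻¹ ∈ H ⊓ V := by
          intro u hu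
          rw [← conj_eq V hn y h hv hu.2 (y ^ i), ← hye]
          exact ⟨H.mul_mem (H.mul_mem hyH hu.1) (H.inv_mem hyH), hn.conj_mem u hu.2 y'⟩
        have := inv_pow _ _ hz m
        rwa [hm] at this
    have hVH : V ≤ H := by rw [← hU]; exact inf_le_left
    have hzH : y ^ i ∈ H := by
      have : y ^ i = v⁻¹ * y' := by rw [hye]; group
      rw [this]
      exact H.mul_mem (H.inv_mem (hVH hv)) hyH
    have hyH' : y ∈ H := by rw [← hm]; exact H.pow_mem hzH m
    rw [eq_top_iff]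
    intro g _
    obtain ⟨v', hv', j, hge, -⟩ := H98CritAbs1.exists_eq hq V y h hi g
    rw [hge]
    exact H.mul_mem (hVH hv') (H.pow_mem hyH' j)
  · intro N hN hN1
    by_cases hb : N ⊓ V = ⊥
    · exfalso
      obtain ⟨n', hn'⟩ := Subgroup.ne_bot_iff_exists_ne_one.1 hN1
      obtain ⟨n, hnN, hn1⟩ : ∃ n : F, n ∈ N ∧ n ≠ 1 := ⟨n', n'.2, fun h => hn' (Subtype.ext h)⟩
      have hnV : n ∉ V := by
        intro hv
        have : n ∈ N ⊓ V := ⟨hnN, hv⟩
        rw [hb, Subgroup.mem_bot] at this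
        exact hn1 this
      obtain ⟨v, hv, i, hne, hiff⟩ := H98CritAbs1.exists_eq hq V y h hi n
      have hqi : ¬ q ∣ i := fun hd => hnV (hiff.2 hd)
      apply h.ne_bot
      rw [eq_bot_iff]
      intro w hw
      rw [Subgroup.mem_bot]
      apply H98CritAbs1.fix_pow hq V y h i hqi w hw
      rw [← conj_eq V hn y h hv hw (y ^ i), ← hne]
      have hc : n * w * n⁻¹ * w⁻¹ ∈ N ⊓ V := by
        constructor
        · have : n * w * n⁻¹ * w⁻¹ = n * (w * n⁻¹ * w⁻¹) := by group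
          rw [this]
          exact N.mul_mem hnN (hN.conj_mem _ (N.inv_mem hnN) w)
        · exact V.mul_mem (hn.conj_mem w hw n) (V.inv_mem hw)
      rw [hb, Subgroup.mem_bot] at hc
      exact mul_inv_eq_one.1 hc
    · have : N ⊓ V = V := by
        apply hirr _ inf_le_right hb
        intro u hu
        exact ⟨hN.conj_mem u hu.1 y, hn.conj_mem u hu.2 y⟩
      rw [← this]
      exact inf_le_left

end Cfsg.Agent.Lib.H98CritAbs2
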