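import Cfsg.Agent.Lib.Helper98CritDefs

/-! PROJECT 3599, piece Con1 (75m), pure Mathlib. -/
namespace Cfsg.Agent.Lib.H98CritCon1
open Cfsg.Agent.Lib.Helper98CritDefs

/-- translations of a field -/
noncomputable def T (K : Type) [Field K] : Multiplicative K →* Equiv.Perm K :=
  MonoidHom.mk' (fun v => Equiv.addLeft (Multiplicative.toAdd v)) (by
    intro a b
    ext x
    simp [add_assoc])

theorem T_apply (K : Type) [Field K] (v : Multiplicative K) (x : K) :
    T K v x = Multiplicative.toAdd v + x := rfl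

theorem raw_of_field (K : Type) [Field K] (p q : ℕ) [CharP K p] (hq : q.Prime) (ζ : Kˣ)
    (hζ : orderOf ζ = q) : Raw p q (T K).range (MulAction.toPermHom Kˣ K ζ) := by
  haveI : Fact q.Prime := ⟨hq⟩
  have hy : ∀ (u : Kˣ) (x : K), MulAction.toPermHom Kˣ K u x = (u : K) * x := fun u x => rfl
  have hζ1 : ζ ≠ 1 := by
    intro h
    rw [h, orderOf_one] at hζ
    exact hq.one_lt.ne hζ
  have hconj : ∀ v : Multiplicative K, MulAction.toPermHom Kˣ K ζ * T K v * (MulAction.toPermHom Kˣ K ζ)⁻¹ =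
      T K (Multiplicative.ofAdd ((ζ : K) * Multiplicative.toAdd v)) := by
    intro v
    ext x
    rw [← map_inv, Equiv.Perm.mul_apply, Equiv.Perm.mul_apply, hy, hy, T_apply, T_apply, toAdd_ofAdd,
      mul_add, ← mul_assoc, ← Units.val_mul, mul_inv_cancel, Units.val_one, one_mul]
  refine ⟨?_, ?_, ?_, ?_, ?_, ?_⟩
  · rintro _ ⟨a, rfl⟩ _ ⟨b, rfl⟩
    rw [← map_mul, ← map_mul, mul_comm]
  · rintro _ ⟨a, rfl⟩
    rw [← map_pow]
    have : a ^ p = 1 := by
      apply Multiplicative.toAdd.injective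
      rw [toAdd_pow, toAdd_one, nsmul_eq_mul, CharP.cast_eq_zero, zero_mul]
    rw [this, map_one]
  · intro hb
    have h1 : T K (Multiplicative.ofAdd 1) ∈ (T K).range := ⟨_, rfl⟩
    rw [hb, Subgroup.mem_bot] at h1
    have h2 := congrArg (fun σ : Equiv.Perm K => σ 0) h1
    simp only [T_apply, toAdd_ofAdd, add_zero, Equiv.Perm.one_apply] at h2
    exact one_ne_zero h2
  · rintro _ ⟨v, rfl⟩
    rw [hconj]
    exact ⟨_, rfl⟩
  · apply orderOf_eq_prime
    · rw [← map_pow, ← hζ, pow_orderOf_eq_one, map_one]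
    · intro h1
      have h2 := congrArg (fun σ : Equiv.Perm K => σ 1) h1
      simp only [hy, mul_one, Equiv.Perm.one_apply] at h2
      exact hζ1 (Units.ext h2)
  · rintro _ ⟨v, rfl⟩ hf
    rw [hconj] at hf
    have h2 := congrArg (fun σ : Equiv.Perm K => σ 0) hf
    simp only [T_apply, toAdd_ofAdd, add_zero] at h2
    have h3 : ((ζ : K) - 1) * Multiplicative.toAdd v = 0 := by
      rw [sub_mul, one_mul, h2, sub_self]
    have h4 : (ζ : K) - 1 ≠ 0 := by
      intro h5
      exact hζ1 (Units.ext (sub_eq_zero.1 h5))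
    have h5 : Multiplicative.toAdd v = 0 := (mul_eq_zero.1 h3).resolve_left h4
    have h6 : v = 1 := Multiplicative.toAdd.injective (by rw [h5, toAdd_one])
    rw [h6, map_one]

theorem exists_raw (p q : ℕ) (hp : p.Prime) (hq : q.Prime) (hpq : p ≠ q) :
    ∃ (F : Type) (_ : Group F) (_ : Fintype F) (V : Subgroup F) (y : F), Raw p q V y := by
  haveI : Fact p.Prime := ⟨hp⟩
  haveI : Fact q.Prime := ⟨hq⟩
  have hq1 : q - 1 ≠ 0 := by have := hq.two_le; omega
  have hcard : Nat.card (GaloisField p (q - 1)) = p ^ (q - 1) := GaloisField.card p (q - 1) hq1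
  have hdvd : q ∣ Nat.card (GaloisField p (q - 1))ˣ := by
    rw [Nat.card_units, hcard]
    have h1 : p ^ Nat.totient q ≡ 1 [MOD q] :=
      Nat.ModEq.pow_totient ((Nat.coprime_primes hp hq).2 hpq)
    rw [Nat.totient_prime hq] at h1
    exact (Nat.modEq_iff_dvd' (Nat.one_le_pow _ _ hp.pos)).1 h1.symm
  obtain ⟨ζ, hζ⟩ := exists_prime_orderOf_dvd_card' (G := (GaloisField p (q - 1))ˣ) q hdvd
  exact ⟨Equiv.Perm (GaloisField p (q - 1)), inferInstance, Fintype.ofFinite _, _, _,
    raw_of_field (GaloisField p (q - 1)) p q hq ζ hζ⟩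

end Cfsg.Agent.Lib.H98CritCon1
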