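import Cfsg.Agent.Lib.Helper98CritDefs

/-! PROJECT 3599, piece Con2 (90m), pure Mathlib. -/
namespace Cfsg.Agent.Lib.H98CritCon2
open Cfsg.Agent.Lib.Helper98CritDefs

theorem inv_pow' {F : Type*} [Group F] (U : Subgroup F) (z : F) (hz : ∀ u ∈ U, z * u * z⁻¹ ∈ U) (m : ℕ) :
    ∀ u ∈ U, z ^ m * u * (z ^ m)⁻¹ ∈ U := by
  induction m with
  | zero => intro u hu; simpa using hu
  | succ k ih =>
    intro u hu
    have := hz _ (ih u hu)
    have e : z ^ (k + 1) * u * (z ^ (k + 1))⁻¹ = z * (z ^ k * u * (z ^ k)⁻¹) * z⁻¹ := by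
      rw [pow_succ']; group
    rw [e]; exact this

/-- Pass to a minimal `y`-invariant subgroup and to the subgroup it generates with `y`. -/
theorem exists_irr {F : Type} [Group F] [Fintype F] (p q : ℕ) (hp : p.Prime) (hq : q.Prime) (hpq : p ≠ q)
    (V : Subgroup F) (y : F) (h : Raw p q V y) :
    ∃ (F' : Type) (_ : Group F') (_ : Fintype F') (V' : Subgroup F') (y' : F'), Raw p q V' y' ∧ V'.Normal ∧
      V'.index = q ∧ ∀ U : Subgroup F', U ≤ V' → U ≠ ⊥ → (∀ u ∈ U, y' * u * y'⁻¹ ∈ U) → U = V' := by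
  classical
  let S : Set (Subgroup F) := {U | U ≤ V ∧ U ≠ ⊥ ∧ ∀ u ∈ U, y * u * y⁻¹ ∈ U}
  have hSne : S.Nonempty := ⟨V, le_rfl, h.ne_bot, h.norm⟩
  obtain ⟨U, ⟨hUV, hU1, hUy⟩, hmin⟩ := (Set.toFinite S).exists_minimal hSne
  set K : Subgroup F := U ⊔ Subgroup.zpowers y with hK
  have hUK : U ≤ K := le_sup_left
  have hyK : y ∈ K := (le_sup_right : Subgroup.zpowers y ≤ K) (Subgroup.mem_zpowers y)
  have hyV : y ∉ V := by
    intro hy
    have h1 : y = 1 := h.fix y hy (by group)
    have h2 := h.order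
    rw [h1, orderOf_one] at h2
    exact hq.one_lt.ne h2
  -- `y` normalizes `U`
  have hyinv : ∀ u ∈ U, y⁻¹ * u * y ∈ U := by
    intro u hu
    have h1 := inv_pow' U y hUy (q - 1) u hu
    have h2 : y ^ (q - 1) = y⁻¹ := by
      have h3 : y ^ (q - 1) * y = 1 := by
        rw [← pow_succ, Nat.sub_add_cancel hq.one_lt.le, ← h.order, pow_orderOf_eq_one]
      exact eq_inv_of_mul_eq_one_left h3
    rw [h2, inv_inv] at h1
    exact h1
  have hyN : y ∈ Subgroup.normalizer (U : Set F) := by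
    rw [Subgroup.mem_normalizer_iff]
    intro g
    constructor
    · exact hUy g
    · intro hg
      have := hyinv _ hg
      have e : y⁻¹ * (y * g * y⁻¹) * y = g := by group
      rwa [e] at this
  have hKN : K ≤ Subgroup.normalizer (U : Set F) :=
    sup_le Subgroup.le_normalizer ((Subgroup.zpowers_le).2 hyN)
  have hnorm : (U.subgroupOf K).Normal := (Subgroup.normal_subgroupOf_iff_le_normalizer hUK).2 hKN
  refine ⟨K, inferInstance, Fintype.ofFinite _, U.subgroupOf K, ⟨y, hyK⟩, ?_, hnorm, ?_, ?_⟩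
  · refine ⟨?_, ?_, ?_, ?_, ?_, ?_⟩
    · intro a ha b hb
      exact Subtype.ext (h.comm a (hUV (Subgroup.mem_subgroupOf.1 ha)) b (hUV (Subgroup.mem_subgroupOf.1 hb)))
    · intro a ha
      apply Subtype.ext
      rw [Subgroup.coe_pow, Subgroup.coe_one]
      exact h.exp a (hUV (Subgroup.mem_subgroupOf.1 ha))
    · intro hb
      rw [Subgroup.subgroupOf_eq_bot] at hb
      exact hU1 (hb.eq_bot_of_le hUK)
    · intro v hv
      rw [Subgroup.mem_subgroupOf] at hv ⊢
      exact hUy _ hv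
    · rw [← h.order]
      exact Subgroup.orderOf_mk y hyK
    · intro v hv hf
      apply Subtype.ext
      exact h.fix v (hUV (Subgroup.mem_subgroupOf.1 hv)) (congrArg Subtype.val hf)
  · haveI := hnorm
    set φ := QuotientGroup.mk' (U.subgroupOf K) with hφ
    set y' : K := ⟨y, hyK⟩ with hy'
    let M : Subgroup K := (Subgroup.zpowers (φ y')).comap φ
    have hle : K ≤ M.map K.subtype := by
      apply sup_le
      · intro u hu
        refine ⟨⟨u, hUK hu⟩, ?_, rfl⟩
        show φ ⟨u, hUK hu⟩ ∈ Subgroup.zpowers (φ y')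
        have : φ ⟨u, hUK hu⟩ = 1 := by
          rw [hφ, QuotientGroup.mk'_apply, QuotientGroup.eq_one_iff, Subgroup.mem_subgroupOf]
          exact hu
        rw [this]; exact Subgroup.one_mem _
      · rw [Subgroup.zpowers_le]
        exact ⟨y', Subgroup.mem_zpowers (φ y'), rfl⟩
    have hall : ∀ a : K ⧸ U.subgroupOf K, a ∈ Subgroup.zpowers (φ y') := by
      intro a
      obtain ⟨x, rfl⟩ := QuotientGroup.mk_surjective a
      obtain ⟨x', hx', hxx⟩ := hle x.2
      have : x' = x := Subtype.ext hxx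
      rw [this] at hx'
      exact hx'
    have hcard : Nat.card (K ⧸ U.subgroupOf K) = orderOf (φ y') :=
      (orderOf_eq_card_of_forall_mem_zpowers hall).symm
    have hd : orderOf (φ y') ∣ q := by
      have h1 : orderOf (φ y') ∣ orderOf y' := orderOf_map_dvd φ y'
      rwa [hy', Subgroup.orderOf_mk, h.order] at h1
    have hne : orderOf (φ y') ≠ 1 := by
      intro h1
      rw [orderOf_eq_one_iff, hφ, QuotientGroup.mk'_apply, QuotientGroup.eq_one_iff,
        Subgroup.mem_subgroupOf] at h1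
      exact hyV (hUV h1)
    show Nat.card (K ⧸ U.subgroupOf K) = q
    rw [hcard]
    rcases (Nat.dvd_prime hq).1 hd with h1 | h1
    · exact absurd h1 hne
    · exact h1
  · intro W hW hW1 hWy
    have hW0 : W.map K.subtype ≤ U := Subgroup.map_le_iff_le_comap.2 hW
    have hmem : W.map K.subtype ∈ S := by
      refine ⟨hW0.trans hUV, ?_, ?_⟩
      · intro hb
        exact hW1 ((Subgroup.map_eq_bot_iff_of_injective W K.subtype_injective).1 hb)
      · rintro _ ⟨w, hw, rfl⟩
        exact ⟨_, hWy w hw, rfl⟩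
    have h1 : U ≤ W.map K.subtype := hmin hmem hW0
    have h2 : W.map K.subtype = U := le_antisymm hW0 h1
    rw [← h2]
    exact (Subgroup.comap_map_eq_self_of_injective K.subtype_injective W).symm

end Cfsg.Agent.Lib.H98CritCon2
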