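import Cfsg.Agent.Lib.H98CritLoc

/-! PROJECT 3599, piece Inv (60m). -/
namespace Cfsg.Agent.Lib.H98CritInv
open Cfsg.Agent.Lib.Helper98CritDefs

theorem inv_of_equiv {G G' : Type*} [Group G] [Group G'] (e : G ≃* G') (r : ℕ) (h : Inv r G) : Inv r G' := by
  intro x y hx hy
  have h1 : (e.symm x) ^ r = 1 := by rw [← map_pow, hx, map_one]
  have h2 : (e.symm y) ^ r = 1 := by rw [← map_pow, hy, map_one]
  have h3 := h _ _ h1 h2
  rw [← map_mul, ← map_pow] at h3
  exact (MulEquiv.map_eq_one_iff e.symm).1 h3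

theorem eq_one_of_ne {ι : Type} {F : ι → Type} [∀ j, Group (F j)]
    {P Q : ι → ℕ} {V : ∀ j, Subgroup (F j)} (h : Fam F P Q V) (i j : ι) (hij : i ≠ j) (x : F i)
    (hx : x ^ (P j) = 1) : x = 1 := by
  have h1 : orderOf x ∣ P j := orderOf_dvd_of_pow_eq_one hx
  rcases (h.crit i).order x with h2 | h2 | h2
  · exact orderOf_eq_one_iff.1 h2
  · rw [h2] at h1
    exact absurd (h.injP _ _ ((Nat.prime_dvd_prime_iff_eq (h.pP i) (h.pP j)).1 h1)) hij
  · rw [h2] at h1
    exact absurd ((Nat.prime_dvd_prime_iff_eq (h.pQ i) (h.pP j)).1 h1).symm (h.nePQ _ _)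

/-- componentwise: at `i = j` use `H98CritLoc.inv_p`; at `i ≠ j`: `(x i)^(P j) = 1` and `orderOf (x i) ∈ {1, P i, Q i}` divides the prime `P j ≠ P i, Q i`, so `x i = 1`, the same for `y i`. -/
theorem inv_P {ι : Type} {F : ι → Type} [∀ j, Group (F j)] [∀ j, Finite (F j)]
    {P Q : ι → ℕ} {V : ∀ j, Subgroup (F j)} (h : Fam F P Q V) (j : ι) : Inv (P j) (∀ i, F i) := by
  intro x y hx hy
  funext i
  have hxi : (x i) ^ (P j) = 1 := by
    have := congrFun hx i
    rwa [Pi.pow_apply, Pi.one_apply] at this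
  have hyi : (y i) ^ (P j) = 1 := by
    have := congrFun hy i
    rwa [Pi.pow_apply, Pi.one_apply] at this
  rw [Pi.pow_apply, Pi.mul_apply, Pi.one_apply]
  by_cases hij : i = j
  · subst hij
    exact H98CritLoc.inv_p (h.pP i) (h.pQ i) (h.nePQ i i) (V i) (h.crit i) _ _ hxi hyi
  · rw [eq_one_of_ne h i j hij _ hxi, eq_one_of_ne h i j hij _ hyi, one_mul, one_pow]

/-- if `Inv (Q j) (∀ i, F i)` then `Inv (Q j) (F j)` (apply it to `Pi.mulSingle j x`, `Pi.mulSingle j y`; `Pi.mulSingle` is a homomorphism `MonoidHom.mulSingle`, injective), contradicting `H98CritLoc.not_inv_q`. -/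
theorem not_inv_Q {ι : Type} [DecidableEq ι] {F : ι → Type} [∀ j, Group (F j)] [∀ j, Finite (F j)]
    {P Q : ι → ℕ} {V : ∀ j, Subgroup (F j)} (h : Fam F P Q V) (j : ι) : ¬ Inv (Q j) (∀ i, F i) := by
  intro hI
  apply H98CritLoc.not_inv_q (h.pP j) (h.pQ j) (h.nePQ j j) (V j) (h.crit j)
  intro x y hx hy
  have h1 : (MonoidHom.mulSingle F j x) ^ (Q j) = 1 := by rw [← map_pow, hx, map_one]
  have h2 : (MonoidHom.mulSingle F j y) ^ (Q j) = 1 := by rw [← map_pow, hy, map_one]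
  have h3 := hI _ _ h1 h2
  rw [← map_mul, ← map_pow] at h3
  have h4 := congrFun h3 j
  simpa using h4

end Cfsg.Agent.Lib.H98CritInv
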