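import Mathlib

/-! PROJECT 3599, piece Lift (30m), pure Mathlib. -/
namespace Cfsg.Agent.Lib.H98CritLift

/-- `x̄ = mk x`; `r = orderOf x̄ ∣ orderOf x` (`orderOf_map_dvd (QuotientGroup.mk' N) x`), so `x ^ (orderOf x / r)` has order `r` (`orderOf_pow_orderOf_div`). -/
theorem exists_orderOf {G : Type*} [Group G] [Finite G] (N : Subgroup G) [N.Normal] (r : ℕ) (hr : r.Prime)
    (x : G ⧸ N) (hx : orderOf x = r) : ∃ g : G, orderOf g = r := by
  obtain ⟨g, rfl⟩ := QuotientGroup.mk_surjective x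
  have h1 : r ∣ orderOf g := by
    rw [← hx]
    exact orderOf_map_dvd (QuotientGroup.mk' N) g
  exact ⟨g ^ (orderOf g / r), orderOf_pow_orderOf_div (orderOf_pos g).ne' h1⟩

/-- a nontrivial finite group/subgroup contains an element of prime order (`n ≠ 1`, `r := (orderOf n).minFac`, `n ^ (orderOf n / r)`). -/
theorem exists_prime_order {G : Type*} [Group G] [Finite G] (N : Subgroup G) (hN : N ≠ ⊥) :
    ∃ (r : ℕ) (n : G), r.Prime ∧ n ∈ N ∧ orderOf n = r := by
  obtain ⟨n, hn, hn1⟩ : ∃ n ∈ N, n ≠ 1 := by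
    by_contra hcon
    push Not at hcon
    exact hN ((Subgroup.eq_bot_iff_forall N).2 hcon)
  have h1 : orderOf n ≠ 1 := fun h => hn1 (orderOf_eq_one_iff.1 h)
  refine ⟨(orderOf n).minFac, n ^ (orderOf n / (orderOf n).minFac), Nat.minFac_prime h1,
    N.pow_mem hn _, orderOf_pow_orderOf_div (orderOf_pos n).ne' (Nat.minFac_dvd _)⟩

end Cfsg.Agent.Lib.H98CritLift
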