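import Cfsg.Agent.Lib.Helper98CritDefs

/-! PROJECT 3599, piece Loc (75m), pure Mathlib: consequences of `IsCrit`. -/
namespace Cfsg.Agent.Lib.H98CritLoc
open Cfsg.Agent.Lib.Helper98CritDefs

theorem pow_eq_one_of_mem {F : Type*} [Group F] {p q : ℕ} (hp : p.Prime) (hq : q.Prime)
    (hpq : p ≠ q) (V : Subgroup F) (h : IsCrit p q V) (x : F) (hx : x ∈ V) : x ^ p = 1 := by
  obtain ⟨k, hk⟩ := h.pgroup ⟨x, hx⟩
  have hk' : x ^ (p ^ k) = 1 := by
    have := congrArg Subtype.val hk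
    simpa using this
  rcases h.order x with h1 | h1 | h1
  · rw [orderOf_eq_one_iff.1 h1, one_pow]
  · rw [← h1]; exact pow_orderOf_eq_one x
  · exfalso
    have h2 : q ∣ p ^ k := by rw [← h1]; exact orderOf_dvd_of_pow_eq_one hk'
    exact hpq ((Nat.prime_dvd_prime_iff_eq hq hp).1 (hq.dvd_of_dvd_pow h2)).symm

theorem eq_one_of_pows {F : Type*} [Group F] {p q : ℕ} (hp : p.Prime) (hq : q.Prime)
    (hpq : p ≠ q) (x : F) (h1 : x ^ p = 1) (h2 : x ^ q = 1) : x = 1 := by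
  have h3 : orderOf x ∣ Nat.gcd p q :=
    Nat.dvd_gcd (orderOf_dvd_of_pow_eq_one h1) (orderOf_dvd_of_pow_eq_one h2)
  rw [((Nat.coprime_primes hp hq).2 hpq).gcd_eq_one, Nat.dvd_one, orderOf_eq_one_iff] at h3
  exact h3

/-- Cauchy in `V` (a nontrivial `p`-group: a nonidentity element has order `1, p, q` and a power of `p`). -/
theorem exists_p {F : Type*} [Group F] [Finite F] {p q : ℕ} (hp : p.Prime) (hq : q.Prime) (hpq : p ≠ q)
    (V : Subgroup F) (h : IsCrit p q V) : ∃ x ∈ V, orderOf x = p := by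
  obtain ⟨x, hx, hx1⟩ : ∃ x ∈ V, x ≠ 1 := by
    by_contra hcon
    push Not at hcon
    exact h.ne_bot ((Subgroup.eq_bot_iff_forall V).2 hcon)
  refine ⟨x, hx, ?_⟩
  have h1 : orderOf x ∣ p := orderOf_dvd_of_pow_eq_one (pow_eq_one_of_mem hp hq hpq V h x hx)
  rcases (Nat.dvd_prime hp).1 h1 with h2 | h2
  · exact absurd (orderOf_eq_one_iff.1 h2) hx1
  · exact h2

/-- `q ∣ |F|` (index), Cauchy. -/
theorem exists_q {F : Type*} [Group F] [Finite F] {p q : ℕ} (hp : p.Prime) (hq : q.Prime) (hpq : p ≠ q)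
    (V : Subgroup F) (h : IsCrit p q V) : ∃ y : F, orderOf y = q := by
  have : Fact q.Prime := ⟨hq⟩
  apply exists_prime_orderOf_dvd_card' q
  rw [← h.index]
  exact Subgroup.index_dvd_card V

/-- `x^p = 1 → x ∈ V` (the image of `x` in `F ⧸ V`, a group of order `q`, is killed by `p` and by `q`). -/
theorem mem_of_pow {F : Type*} [Group F] [Finite F] {p q : ℕ} (hp : p.Prime) (hq : q.Prime) (hpq : p ≠ q)
    (V : Subgroup F) (h : IsCrit p q V) (x : F) (hx : x ^ p = 1) : x ∈ V := by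
  have := h.normal
  have h1 : x ^ q ∈ V := by
    have h3 := Subgroup.pow_index_mem V x
    rwa [h.index] at h3
  have h5 : ((x : F ⧸ V)) ^ q = 1 := by
    rw [← QuotientGroup.mk_pow]; exact (QuotientGroup.eq_one_iff _).2 h1
  have h6 : ((x : F ⧸ V)) ^ p = 1 := by
    rw [← QuotientGroup.mk_pow, hx]; rfl
  exact (QuotientGroup.eq_one_iff x).1 (eq_one_of_pows hp hq hpq _ h6 h5)

/-- elements of `V` are killed by `p` (order `1`, `p` or `q`, and a power of `p`). -/
theorem inv_p {F : Type*} [Group F] [Finite F] {p q : ℕ} (hp : p.Prime) (hq : q.Prime) (hpq : p ≠ q)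
    (V : Subgroup F) (h : IsCrit p q V) : Inv p F := by
  intro x y hx hy
  exact pow_eq_one_of_mem hp hq hpq V h _
    (V.mul_mem (mem_of_pow hp hq hpq V h x hx) (mem_of_pow hp hq hpq V h y hy))

/-- `y` of order `q`, `v ∈ V` of order `p`.  `x₁ = y⁻¹`, `x₂ = v y v⁻¹` are killed by `q`; `x₁ x₂ = y⁻¹ v y v⁻¹ ∈ V`.  If `(x₁x₂)^q = 1` then `x₁x₂ = 1` (`p`-element), so `y`, `v` commute and `y v` has order `p q`
(`Commute.orderOf_mul_eq_mul_orderOf_of_coprime`), not in `{1, p, q}`. -/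
theorem not_inv_q {F : Type*} [Group F] [Finite F] {p q : ℕ} (hp : p.Prime) (hq : q.Prime) (hpq : p ≠ q)
    (V : Subgroup F) (h : IsCrit p q V) : ¬ Inv q F := by
  intro hI
  obtain ⟨v, hv, hvp⟩ := exists_p hp hq hpq V h
  obtain ⟨y, hy⟩ := exists_q hp hq hpq V h
  have hyq : y ^ q = 1 := by rw [← hy]; exact pow_orderOf_eq_one y
  have h1 : (y⁻¹) ^ q = 1 := by rw [inv_pow, hyq, inv_one]
  have h2 : (v * y * v⁻¹) ^ q = 1 := by rw [conj_pow, hyq, mul_one, mul_inv_cancel]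
  have h3 := hI _ _ h1 h2
  have h4 : y⁻¹ * (v * y * v⁻¹) ∈ V := by
    have h5 : y⁻¹ * (v * y * v⁻¹) = (y⁻¹ * v * y⁻¹⁻¹) * v⁻¹ := by group
    rw [h5]
    exact V.mul_mem (h.normal.conj_mem v hv _) (V.inv_mem hv)
  have h6 := eq_one_of_pows hp hq hpq _ (pow_eq_one_of_mem hp hq hpq V h _ h4) h3
  have h7 : Commute y v := by
    have h8 : v * y * v⁻¹ = y := by
      have := congrArg (fun t => y * t) h6
      simpa using this
    have h9 : v * y = y * v := by
      have := congrArg (fun t => t * v) h8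
      simpa using this
    exact h9.symm
  have h10 : orderOf (y * v) = q * p := by
    rw [h7.orderOf_mul_eq_mul_orderOf_of_coprime (by
      rw [hy, hvp]; exact (Nat.coprime_primes hq hp).2 hpq.symm), hy, hvp]
  have hp2 := hp.two_le
  have hq2 := hq.two_le
  rcases h.order (y * v) with h11 | h11 | h11
  · rw [h10] at h11
    nlinarith
  · rw [h10] at h11
    nlinarith
  · rw [h10] at h11
    nlinarith

/-- `|F| = p^a q`. -/
theorem card_eq {F : Type*} [Group F] [Finite F] {p q : ℕ} (hp : p.Prime) (hq : q.Prime) (hpq : p ≠ q)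
    (V : Subgroup F) (h : IsCrit p q V) : ∃ a : ℕ, Nat.card V = p ^ a ∧ Nat.card F = p ^ a * q := by
  have : Fact p.Prime := ⟨hp⟩
  obtain ⟨a, ha⟩ := IsPGroup.iff_card.1 h.pgroup
  refine ⟨a, ha, ?_⟩
  rw [← Subgroup.card_mul_index V, ha, h.index]

end Cfsg.Agent.Lib.H98CritLoc
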