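import Cfsg.Agent.Lib.H98CritSing
import Cfsg.Agent.Lib.H98CritLift
import Cfsg.Agent.Lib.H98CritLoc

/-! PROJECT 3599, piece Quot (90m). -/
namespace Cfsg.Agent.Lib.H98CritQuot
open Cfsg.Agent.Lib.Helper98CritDefs

/-- A proper quotient loses a prime.
Proof.  `N` contains `n` of prime order `r` (`H98CritLift.exists_prime_order`), `n = Pi.mulSingle j x`, `x ≠ 1` (`H98CritSing.eq_mulSingle`).  `N_j := N.comap (MonoidHom.mulSingle F j)` is normal, `≠ ⊥`, so `V j ≤ N_j` (`IsCrit.min`).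
Put `e := Q j * ∏_{i ≠ j} |F i|` (e.g. `∏ i, if i = j then Q j else Nat.card (F i)`).  For every `g`: `(g^e) i = 1` for `i ≠ j` (`pow_card_eq_one'`), `(g^e) j = ((g j)^(Q j))^.. ∈ V j` (normal of index `Q j`: `Subgroup.pow_index_mem`), so
`g^e = Pi.mulSingle j v`, `v ∈ V j`, i.e. `g^e ∈ N`.   `e` is coprime to `P j` (`|F i| = P i ^ a * Q i`, `H98CritLoc.card_eq`; distinct primes).   If `g^(P j) ∈ N` too then `g ∈ N` (Bezout: `Nat.Coprime`, `zpow`, `Int.gcd_eq_gcd_ab`;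
or in `G ⧸ N`: `orderOf` divides two coprime numbers). -/
theorem exists_lost {ι : Type} [Fintype ι] [DecidableEq ι] {F : ι → Type} [∀ j, Group (F j)] [∀ j, Finite (F j)]
    {P Q : ι → ℕ} {V : ∀ j, Subgroup (F j)} (h : Fam F P Q V) (N : Subgroup (∀ j, F j)) (hN : N.Normal)
    (hne : N ≠ ⊥) : ∃ j, ∀ g : (∀ j, F j), g ^ (P j) ∈ N → g ∈ N := by
  obtain ⟨r, n, hr, hnN, hn⟩ := H98CritLift.exists_prime_order N hne
  obtain ⟨j, x, hnx, hx, -⟩ := H98CritSing.eq_mulSingle h n r hr hn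
  have hx1 : x ≠ 1 := by
    rintro rfl
    rw [orderOf_one] at hx
    exact hr.ne_one hx.symm
  refine ⟨j, fun g hg => ?_⟩
  have hNjn : (N.comap (MonoidHom.mulSingle F j)).Normal := hN.comap _
  have hNjne : N.comap (MonoidHom.mulSingle F j) ≠ ⊥ := by
    intro hb
    have h1 : x ∈ N.comap (MonoidHom.mulSingle F j) := by
      show Pi.mulSingle j x ∈ N
      rw [← hnx]; exact hnN
    rw [hb, Subgroup.mem_bot] at h1
    exact hx1 h1
  have hV : V j ≤ N.comap (MonoidHom.mulSingle F j) := (h.crit j).min _ hNjn hNjne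
  obtain ⟨e, he⟩ : ∃ e : ℕ, e = Q j * ∏ i ∈ Finset.univ.erase j, Nat.card (F i) := ⟨_, rfl⟩
  have hge : g ^ e ∈ N := by
    have h1 : g ^ e = Pi.mulSingle j ((g j) ^ e) := by
      funext i
      by_cases hij : i = j
      · subst hij
        rw [Pi.mulSingle_eq_same, Pi.pow_apply]
      · rw [Pi.mulSingle_eq_of_ne hij, Pi.pow_apply]
        have h2 : Nat.card (F i) ∣ e := by
          rw [he]
          exact Dvd.dvd.mul_left
            (Finset.dvd_prod_of_mem _ (Finset.mem_erase.2 ⟨hij, Finset.mem_univ _⟩)) _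
        obtain ⟨c, hc⟩ := h2
        rw [hc, pow_mul, pow_card_eq_one', one_pow]
    rw [h1]
    have h2 : (g j) ^ e ∈ V j := by
      rw [he, pow_mul]
      apply Subgroup.pow_mem
      have := (h.crit j).normal
      have h3 := Subgroup.pow_index_mem (V j) (g j)
      rwa [(h.crit j).index] at h3
    exact hV h2
  have hcop : Nat.Coprime e (P j) := by
    rw [he]
    refine Nat.Coprime.mul_left ?_ ?_
    · exact (Nat.coprime_primes (h.pQ j) (h.pP j)).2 (fun hh => h.nePQ j j hh.symm)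
    · refine Nat.Coprime.prod_left (fun i hi => ?_)
      have hij : i ≠ j := (Finset.mem_erase.1 hi).1
      obtain ⟨a, -, ha⟩ := H98CritLoc.card_eq (h.pP i) (h.pQ i) (h.nePQ i i) (V i) (h.crit i)
      rw [ha]
      refine Nat.Coprime.mul_left ?_ ?_
      · exact ((Nat.coprime_primes (h.pP i) (h.pP j)).2 (fun hh => hij (h.injP i j hh))).pow_left a
      · exact (Nat.coprime_primes (h.pQ i) (h.pP j)).2 (fun hh => h.nePQ j i hh.symm)
  have h5 : ((g : (∀ j, F j) ⧸ N)) ^ e = 1 := by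
    rw [← QuotientGroup.mk_pow]; exact (QuotientGroup.eq_one_iff _).2 hge
  have h6 : ((g : (∀ j, F j) ⧸ N)) ^ (P j) = 1 := by
    rw [← QuotientGroup.mk_pow]; exact (QuotientGroup.eq_one_iff _).2 hg
  have h7 : orderOf (g : (∀ j, F j) ⧸ N) ∣ Nat.gcd e (P j) :=
    Nat.dvd_gcd (orderOf_dvd_of_pow_eq_one h5) (orderOf_dvd_of_pow_eq_one h6)
  rw [hcop.gcd_eq_one, Nat.dvd_one, orderOf_eq_one_iff] at h7
  exact (QuotientGroup.eq_one_iff g).1 h7

end Cfsg.Agent.Lib.H98CritQuot
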