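import Cfsg.Agent.Lib.H98CritOrd
import Cfsg.Agent.Lib.H98CritLoc

/-! PROJECT 3599, piece Spec (45m). -/
namespace Cfsg.Agent.Lib.H98CritSpec
open Cfsg.Agent.Lib.Helper98CritDefs

/-- (⊆) `c j := orderOf (g j)` (`IsCrit.order`, `H98CritOrd.orderOf_fam`).  (⊇) choose `g j` of order `c j` (`1`; `H98CritLoc.exists_p`, `exists_q`). -/
theorem range_orderOf {ι : Type} [Fintype ι] {F : ι → Type} [∀ j, Group (F j)] [∀ j, Finite (F j)] {P Q : ι → ℕ}
    {V : ∀ j, Subgroup (F j)} (h : Fam F P Q V) :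
    Set.range (orderOf : (∀ j, F j) → ℕ) =
      {m : ℕ | ∃ c : ι → ℕ, (∀ j, c j = 1 ∨ c j = P j ∨ c j = Q j) ∧ m = ∏ j, c j} := by
  ext m
  constructor
  · rintro ⟨g, rfl⟩
    exact ⟨fun j => orderOf (g j), fun j => (h.crit j).order (g j), H98CritOrd.orderOf_fam h g⟩
  · rintro ⟨c, hc, rfl⟩
    have h1 : ∀ j, ∃ x : F j, orderOf x = c j := by
      intro j
      rcases hc j with h2 | h2 | h2
      · exact ⟨1, by rw [h2, orderOf_one]⟩
      · obtain ⟨x, -, hx⟩ := H98CritLoc.exists_p (h.pP j) (h.pQ j) (h.nePQ j j) (V j) (h.crit j)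
        exact ⟨x, by rw [h2, hx]⟩
      · obtain ⟨x, hx⟩ := H98CritLoc.exists_q (h.pP j) (h.pQ j) (h.nePQ j j) (V j) (h.crit j)
        exact ⟨x, by rw [h2, hx]⟩
    choose g hg using h1
    refine ⟨g, ?_⟩
    rw [H98CritOrd.orderOf_fam h g]
    exact Finset.prod_congr rfl (fun j _ => hg j)

end Cfsg.Agent.Lib.H98CritSpec
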