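import Cfsg.Agent.Lib.H98CritSing

/-! PROJECT 3599, piece Top (75m). -/
namespace Cfsg.Agent.Lib.H98CritTop
open Cfsg.Agent.Lib.Helper98CritDefs

/-- A subgroup containing all `Pi.mulSingle j x` is `⊤`: `Finset.noncommProd_mul_single` (`univ.noncommProd (fun i => Pi.mulSingle i (x i)) _ = x`) + `Subgroup.noncommProd_mem`. -/
theorem eq_top_of_mulSingle {ι : Type} [Fintype ι] [DecidableEq ι] {F : ι → Type} [∀ j, Group (F j)]
    (H : Subgroup (∀ j, F j)) (h : ∀ (j : ι) (x : F j), Pi.mulSingle j x ∈ H) : H = ⊤ := by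
  rw [eq_top_iff]
  intro x _
  rw [← Finset.noncommProd_mulSingle x]
  exact Subgroup.noncommProd_mem H _ (fun i _ => h i (x i))

/-- `H_j := H.comap (MonoidHom.mulSingle F j)`.  The element of `H` of order `P j` is `Pi.mulSingle i x` with `orderOf x = P j ∈ {P i, Q i}` (`H98CritSing.eq_mulSingle`), so `i = j` (`Fam.injP`, `Fam.nePQ`) and `x ∈ H_j` has order `P j`; the same for `Q j`.
`IsCrit.gen` gives `H_j = ⊤`.  Then `eq_top_of_mulSingle`. -/
theorem eq_top {ι : Type} [Fintype ι] [DecidableEq ι] {F : ι → Type} [∀ j, Group (F j)] [∀ j, Finite (F j)]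
    {P Q : ι → ℕ} {V : ∀ j, Subgroup (F j)} (h : Fam F P Q V) (H : Subgroup (∀ j, F j))
    (hP : ∀ j, ∃ x ∈ H, orderOf x = P j) (hQ : ∀ j, ∃ x ∈ H, orderOf x = Q j) : H = ⊤ := by
  apply eq_top_of_mulSingle
  intro j x
  have h1 : H.comap (MonoidHom.mulSingle F j) = ⊤ := by
    apply (h.crit j).gen
    · obtain ⟨g, hgH, hg⟩ := hP j
      obtain ⟨i, z, hgz, hz, hor⟩ := H98CritSing.eq_mulSingle h g (P j) (h.pP j) hg
      have hij : j = i := by
        rcases hor with hor | hor
        · exact h.injP _ _ hor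
        · exact absurd hor (h.nePQ _ _)
      subst hij
      refine ⟨z, ?_, hz⟩
      show Pi.mulSingle j z ∈ H
      rw [← hgz]; exact hgH
    · obtain ⟨g, hgH, hg⟩ := hQ j
      obtain ⟨i, z, hgz, hz, hor⟩ := H98CritSing.eq_mulSingle h g (Q j) (h.pQ j) hg
      have hij : j = i := by
        rcases hor with hor | hor
        · exact absurd hor.symm (h.nePQ _ _)
        · exact h.injQ _ _ hor
      subst hij
      refine ⟨z, ?_, hz⟩
      show Pi.mulSingle j z ∈ H
      rw [← hgz]; exact hgH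
  have h2 : x ∈ H.comap (MonoidHom.mulSingle F j) := by rw [h1]; trivial
  exact h2

end Cfsg.Agent.Lib.H98CritTop
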