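import Cfsg.Agent.Lib.H98CritCon1
import Cfsg.Agent.Lib.H98CritCon2
import Cfsg.Agent.Lib.H98CritAbs2
import Cfsg.Agent.Lib.H98CritSpec
import Cfsg.Agent.Lib.H98CritTop
import Cfsg.Agent.Lib.H98CritQuot
import Cfsg.Agent.Lib.H98CritInv

/-! PROJECT 3599: assembly (helper98). -/
namespace Cfsg.Agent.Lib.H98CritMain
open Cfsg.Agent.Lib.Helper98CritDefs

theorem exists_crit (p q : ℕ) (hp : p.Prime) (hq : q.Prime) (hpq : p ≠ q) :
    ∃ (F : Type) (_ : Group F) (_ : Fintype F) (V : Subgroup F), IsCrit p q V := by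
  obtain ⟨F, _, _, V, y, h⟩ := H98CritCon1.exists_raw p q hp hq hpq
  obtain ⟨F', i1, i2, V', y', h', hn, hi, hirr⟩ := H98CritCon2.exists_irr p q hp hq hpq V y h
  exact ⟨F', i1, i2, V', H98CritAbs2.isCrit hp hq hpq V' hn y' h' hi hirr⟩

/-- criticality of the product -/
theorem section_ne {ι : Type} [Fintype ι] [DecidableEq ι] {F : ι → Type} [∀ j, Group (F j)] [∀ j, Finite (F j)]
    {P Q : ι → ℕ} {V : ∀ j, Subgroup (F j)} (h : Fam F P Q V) (H : Subgroup (∀ j, F j)) (N : Subgroup ↥H)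
    [N.Normal] (hHN : H ≠ ⊤ ∨ N ≠ ⊥) :
    Set.range (orderOf : (↥H ⧸ N) → ℕ) ≠
      {m : ℕ | ∃ c : ι → ℕ, (∀ j, c j = 1 ∨ c j = P j ∨ c j = Q j) ∧ m = ∏ j, c j} := by
  intro heq
  have memP : ∀ j, P j ∈ {m : ℕ | ∃ c : ι → ℕ, (∀ j, c j = 1 ∨ c j = P j ∨ c j = Q j) ∧ m = ∏ j, c j} := by
    intro j
    refine ⟨fun i => if i = j then P j else 1, ?_, ?_⟩
    · intro i
      by_cases hij : i = j
      · subst hij; simp
      · simp [hij]
    · simp
  have memQ : ∀ j, Q j ∈ {m : ℕ | ∃ c : ι → ℕ, (∀ j, c j = 1 ∨ c j = P j ∨ c j = Q j) ∧ m = ∏ j, c j} := by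
    intro j
    refine ⟨fun i => if i = j then Q j else 1, ?_, ?_⟩
    · intro i
      by_cases hij : i = j
      · subst hij; simp
      · simp [hij]
    · simp
  have liftH : ∀ r : ℕ, r.Prime → r ∈ Set.range (orderOf : (↥H ⧸ N) → ℕ) → ∃ x ∈ H, orderOf x = r := by
    rintro r hr ⟨x, hx⟩
    obtain ⟨g, hg⟩ := H98CritLift.exists_orderOf N r hr x hx
    exact ⟨g, g.2, by rw [Subgroup.orderOf_coe]; exact hg⟩
  have hTop : H = ⊤ := H98CritTop.eq_top h H
    (fun j => liftH _ (h.pP j) (heq ▸ memP j)) (fun j => liftH _ (h.pQ j) (heq ▸ memQ j))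
  have hN : N ≠ ⊥ := by
    rcases hHN with h1 | h1
    · exact absurd hTop h1
    · exact h1
  set N' : Subgroup (∀ j, F j) := N.map H.subtype with hN'
  have hmem : ∀ g : ↥H, (g : ∀ j, F j) ∈ N' ↔ g ∈ N := by
    intro g
    constructor
    · rintro ⟨g', hg', hgg⟩
      have : g' = g := Subtype.ext hgg
      rwa [← this]
    · intro hg
      exact ⟨g, hg, rfl⟩
  have hN'n : N'.Normal := by
    constructor
    intro n hn g
    obtain ⟨n', hn', rfl⟩ := hn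
    have hg : g ∈ H := hTop ▸ Subgroup.mem_top g
    have := (inferInstance : N.Normal).conj_mem n' hn' ⟨g, hg⟩
    exact ⟨_, this, rfl⟩
  have hN'ne : N' ≠ ⊥ := by
    intro hb
    apply hN
    rw [Subgroup.eq_bot_iff_forall]
    intro x hx
    have : (x : ∀ j, F j) ∈ N' := (hmem x).2 hx
    rw [hb, Subgroup.mem_bot] at this
    exact Subtype.ext this
  obtain ⟨j, hj⟩ := H98CritQuot.exists_lost h N' hN'n hN'ne
  obtain ⟨x, hx⟩ : P j ∈ Set.range (orderOf : (↥H ⧸ N) → ℕ) := heq ▸ memP j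
  obtain ⟨g, rfl⟩ := QuotientGroup.mk_surjective x
  have h1 : ((g : ↥H ⧸ N)) ^ (P j) = 1 := by rw [← hx]; exact pow_orderOf_eq_one _
  have h2 : g ^ (P j) ∈ N := by
    rw [← QuotientGroup.mk_pow] at h1
    exact (QuotientGroup.eq_one_iff _).1 h1
  have h3 : (g : ∀ j, F j) ^ (P j) ∈ N' := by
    have := (hmem (g ^ P j)).2 h2
    simpa using this
  have h4 : g ∈ N := (hmem g).1 (hj _ h3)
  have h5 : ((g : ↥H ⧸ N)) = 1 := (QuotientGroup.eq_one_iff _).2 h4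
  rw [h5, orderOf_one] at hx
  exact (h.pP j).one_lt.ne hx

end Cfsg.Agent.Lib.H98CritMain
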