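import Cfsg.Agent.Lib.Helper98CritDefs

/-! PROJECT 3599, piece Ord (60m), pure Mathlib. -/
namespace Cfsg.Agent.Lib.H98CritOrd
open Cfsg.Agent.Lib.Helper98CritDefs

theorem orderOf_pi {ι : Type*} [Fintype ι] {F : ι → Type*} [∀ j, Group (F j)] [∀ j, Finite (F j)]
    (g : ∀ j, F j) (hc : ∀ i j, i ≠ j → (orderOf (g i)).Coprime (orderOf (g j))) :
    orderOf g = ∏ j, orderOf (g j) := by
  apply Nat.dvd_antisymm
  · apply orderOf_dvd_of_pow_eq_one
    funext j
    rw [Pi.pow_apply, Pi.one_apply]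
    exact orderOf_dvd_iff_pow_eq_one.1 (Finset.dvd_prod_of_mem _ (Finset.mem_univ j))
  · apply Fintype.prod_dvd_of_isRelPrime
    · intro i j hij
      exact Nat.coprime_iff_isRelPrime.1 (hc i j hij)
    · intro j
      apply orderOf_dvd_of_pow_eq_one
      have := congrFun (pow_orderOf_eq_one g) j
      rwa [Pi.pow_apply, Pi.one_apply] at this

/-- orders of components at different places are coprime (each is `1`, `P` or `Q`; distinct primes). -/
theorem coprime_orders {ι : Type} {F : ι → Type} [∀ j, Group (F j)] {P Q : ι → ℕ} {V : ∀ j, Subgroup (F j)}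
    (h : Fam F P Q V) (g : ∀ j, F j) (i j : ι) (hij : i ≠ j) : (orderOf (g i)).Coprime (orderOf (g j)) := by
  rcases (h.crit i).order (g i) with h1 | h1 | h1 <;> rcases (h.crit j).order (g j) with h2 | h2 | h2 <;>
    rw [h1, h2]
  · exact Nat.coprime_one_left _
  · exact Nat.coprime_one_left _
  · exact Nat.coprime_one_left _
  · exact Nat.coprime_one_right _
  · exact (Nat.coprime_primes (h.pP i) (h.pP j)).2 (fun e => hij (h.injP i j e))
  · exact (Nat.coprime_primes (h.pP i) (h.pQ j)).2 (h.nePQ i j)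
  · exact Nat.coprime_one_right _
  · exact (Nat.coprime_primes (h.pQ i) (h.pP j)).2 (fun e => h.nePQ j i e.symm)
  · exact (Nat.coprime_primes (h.pQ i) (h.pQ j)).2 (fun e => hij (h.injQ i j e))

theorem orderOf_fam {ι : Type} [Fintype ι] {F : ι → Type} [∀ j, Group (F j)] [∀ j, Finite (F j)] {P Q : ι → ℕ}
    {V : ∀ j, Subgroup (F j)} (h : Fam F P Q V) (g : ∀ j, F j) : orderOf g = ∏ j, orderOf (g j) :=
  orderOf_pi g (fun i j hij => coprime_orders h g i j hij)

end Cfsg.Agent.Lib.H98CritOrd
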