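import Cfsg.Agent.Lib.H98CritOrd

/-! PROJECT 3599, piece Sing (60m). -/
namespace Cfsg.Agent.Lib.H98CritSing
open Cfsg.Agent.Lib.Helper98CritDefs

theorem eq_mulSingle {ι : Type} [Fintype ι] [DecidableEq ι] {F : ι → Type} [∀ j, Group (F j)] [∀ j, Finite (F j)]
    {P Q : ι → ℕ} {V : ∀ j, Subgroup (F j)} (h : Fam F P Q V) (g : ∀ j, F j) (r : ℕ) (hr : r.Prime)
    (hg : orderOf g = r) :
    ∃ (j : ι) (x : F j), g = Pi.mulSingle j x ∧ orderOf x = r ∧ (r = P j ∨ r = Q j) := by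
  have hprod := H98CritOrd.orderOf_fam h g
  rw [hg] at hprod
  have hd : r ∣ ∏ j, orderOf (g j) := by rw [← hprod]
  obtain ⟨j, -, hj⟩ := (Prime.dvd_finset_prod_iff hr.prime _).1 hd
  have hjr : orderOf (g j) ∣ r := by
    rw [hprod]; exact Finset.dvd_prod_of_mem _ (Finset.mem_univ j)
  have hoj : orderOf (g j) = r := Nat.dvd_antisymm hjr hj
  refine ⟨j, g j, ?_, hoj, ?_⟩
  · funext i
    by_cases hij : i = j
    · subst hij
      rw [Pi.mulSingle_eq_same]
    · rw [Pi.mulSingle_eq_of_ne hij]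
      have h1 : orderOf (g i) ∣ r := by
        rw [hprod]; exact Finset.dvd_prod_of_mem _ (Finset.mem_univ i)
      have h2 := H98CritOrd.coprime_orders h g i j hij
      rw [hoj] at h2
      have h3 : orderOf (g i) = 1 := Nat.Coprime.eq_one_of_dvd h2 h1
      exact orderOf_eq_one_iff.1 h3
  · rcases (h.crit j).order (g j) with h1 | h1 | h1
    · rw [hoj] at h1
      exact absurd h1 hr.one_lt.ne'
    · left; rw [← hoj, h1]
    · right; rw [← hoj, h1]

end Cfsg.Agent.Lib.H98CritSing
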