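import Mathlib

/-! PROJECT 4157, piece RedAB (100m), pure Mathlib: a counting lemma for actions of `p`-groups. -/
namespace Cfsg.Agent.Lib.H98KulRedAB
open MulAction

theorem dvd_sum_of_dvd {G X : Type*} [Group G] [MulAction G X] (d : ℕ) (T : Finset X)
    (hT : ∀ (g : G), ∀ x ∈ T, g • x ∈ T) (w : X → ℕ) (hw : ∀ (g : G) (x : X), w (g • x) = w x)
    (h : ∀ x ∈ T, d ∣ (stabilizer G x).index * w x) : d ∣ ∑ x ∈ T, w x := by
  classical
  let q : X → orbitRel.Quotient G X := fun x => Quotient.mk'' x
  rw [← Finset.sum_fiberwise_of_maps_to (s := T) (t := T.image q) (g := q)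
    (fun x hx => Finset.mem_image_of_mem q hx) w]
  apply Finset.dvd_sum
  intro ω hω
  obtain ⟨x₀, hx₀, rfl⟩ := Finset.mem_image.1 hω
  have hq : ∀ x, q x = q x₀ ↔ x ∈ orbit G x₀ := fun x => by
    show (Quotient.mk'' x : orbitRel.Quotient G X) = Quotient.mk'' x₀ ↔ _
    rw [Quotient.eq'']
    exact orbitRel_apply
  have h1 : ∀ x ∈ T.filter (fun x => q x = q x₀), w x = w x₀ := by
    intro x hx
    obtain ⟨g, rfl⟩ := (hq x).1 (Finset.mem_filter.1 hx).2
    exact hw g x₀
  rw [Finset.sum_congr rfl h1, Finset.sum_const, smul_eq_mul]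
  have hc : (T.filter (fun x => q x = q x₀)).card = (stabilizer G x₀).index := by
    rw [MulAction.index_stabilizer, ← Set.ncard_coe_finset]
    congr 1
    ext x
    simp only [Finset.coe_filter, Set.mem_ofPred_eq, hq]
    constructor
    · exact fun h => h.2
    · rintro ⟨g, rfl⟩
      exact ⟨hT g x₀ hx₀, ⟨g, rfl⟩⟩
  rw [hc]
  exact h x₀ hx₀

theorem index_smul {G X : Type*} [Group G] [MulAction G X] (g : G) (x : X) :
    (stabilizer G (g • x)).index = (stabilizer G x).index := by
  rw [index_stabilizer, index_stabilizer, orbit_smul]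

theorem dvd_index {P X : Type*} [Group P] [Finite P] [MulAction P X] {p : ℕ} [Fact p.Prime]
    (hP : IsPGroup p P) (x : X) (h : stabilizer P x ≠ ⊤) : p ∣ (stabilizer P x).index := by
  obtain ⟨n, hn⟩ := hP.index (stabilizer P x)
  rcases n with _ | n
  · exact absurd (Subgroup.index_eq_one.1 (by rw [hn, pow_zero])) h
  · rw [hn]
    exact dvd_pow_self p (Nat.succ_ne_zero n)

theorem sq_dvd_index {P X : Type*} [Group P] [Finite P] [MulAction P X] {p : ℕ} [Fact p.Prime]
    (hP : IsPGroup p P) (x : X) (h : stabilizer P x ≠ ⊤) (h' : (stabilizer P x).index ≠ p) :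
    p ^ 2 ∣ (stabilizer P x).index := by
  obtain ⟨n, hn⟩ := hP.index (stabilizer P x)
  rcases n with _ | _ | n
  · exact absurd (Subgroup.index_eq_one.1 (by rw [hn, pow_zero])) h
  · exact absurd (by rw [hn]; simp) h'
  · rw [hn]
    exact pow_dvd_pow p (by omega)

/-- `P` a finite `p`-group acting on `Z` and `Y`, `S ⊆ Z` a finite invariant subset without fixed points, `π : Z → Y` equivariant.  Put `S₁ = {z ∈ S | |P : P_z| = p}`.  If `π z` is not a fixed point for `z ∈ S₁`
and all fibres of `π|S₁` have size divisible by `p`, then `p² ∣ |S|`.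
Proof.  (1) `S \ S₁` is a union of orbits of size `p^j`, `j ≥ 2` (orbit size = index of the stabilizer = power of `p`, not 1, not `p`; the stabilizers along an orbit are conjugate so `S₁` is invariant), so `|S| ≡ |S₁| mod p²`.
(2) `|S₁| = ∑_{y ∈ π(S₁)} f(y)`, `f(y) = #{z ∈ S₁ | π z = y}`; `f(g • y) = f(y)` (bijection `z ↦ g • z`), `π(S₁)` is a finite invariant set without fixed points, so it is a union of orbits of size divisible by `p`, on each of
which `f` is constant and divisible by `p`.
[Convenient tool for both: if a finite group acts on a finite type `X` and `d ∣` (index of the stabilizer of `x`) * w(x)... ; cf. `Cfsg.Agent.S3975.dvd_card_of_forall_dvd_index` (landed):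
`(∀ x, d ∣ (stabilizer G x).index) → d ∣ Nat.card X`.  For (2) one can apply it to `X = S₁` ... or to the type of pairs; any proof is fine.] -/
theorem sq_dvd {P Z Y : Type*} [Group P] [Finite P] [MulAction P Z] [MulAction P Y] {p : ℕ} [Fact p.Prime]
    (hP : IsPGroup p P) (S : Set Z) (hfin : S.Finite) (hS : ∀ (g : P), ∀ z ∈ S, g • z ∈ S)
    (π : Z → Y) (hπ : ∀ (g : P) (z : Z), π (g • z) = g • π z)
    (h0 : ∀ z ∈ S, stabilizer P z ≠ ⊤)
    (h1 : ∀ z ∈ S, (stabilizer P z).index = p → stabilizer P (π z) ≠ ⊤)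
    (hf : ∀ y : Y, p ∣ Nat.card {z : Z // z ∈ S ∧ (stabilizer P z).index = p ∧ π z = y}) :
    p ^ 2 ∣ Nat.card S := by
  classical
  have hmem : ∀ z, z ∈ hfin.toFinset ↔ z ∈ S := fun z => hfin.mem_toFinset
  have hcard : Nat.card S = hfin.toFinset.card := by
    rw [Nat.card_coe_set_eq, Set.ncard_eq_toFinset_card S hfin]
  rw [hcard, ← Finset.card_filter_add_card_filter_not (s := hfin.toFinset)
    (fun z => (stabilizer P z).index = p)]
  apply dvd_add
  · have hS1 : ∀ z, z ∈ hfin.toFinset.filter (fun z => (stabilizer P z).index = p) ↔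
        z ∈ S ∧ (stabilizer P z).index = p := fun z => by rw [Finset.mem_filter, hmem]
    generalize hfin.toFinset.filter (fun z => (stabilizer P z).index = p) = S1 at hS1
    rw [Finset.card_eq_sum_card_image π S1]
    apply dvd_sum_of_dvd (G := P) (p ^ 2) (S1.image π) ?_
      (fun y => (S1.filter (fun z => π z = y)).card) ?_ ?_
    · intro g y hy
      obtain ⟨z, hz, rfl⟩ := Finset.mem_image.1 hy
      rw [← hπ]
      apply Finset.mem_image_of_mem
      rw [hS1] at hz ⊢
      exact ⟨hS g z hz.1, by rw [index_smul]; exact hz.2⟩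
    · intro g y
      apply Finset.card_bij (fun z _ => g⁻¹ • z)
      · intro z hz
        rw [Finset.mem_filter, hS1] at hz ⊢
        exact ⟨⟨hS _ z hz.1.1, by rw [index_smul]; exact hz.1.2⟩, by rw [hπ, hz.2, inv_smul_smul]⟩
      · intro z _ z' _ h
        exact smul_left_cancel _ h
      · intro z hz
        rw [Finset.mem_filter, hS1] at hz
        refine ⟨g • z, ?_, inv_smul_smul g z⟩
        rw [Finset.mem_filter, hS1]
        exact ⟨⟨hS _ z hz.1.1, by rw [index_smul]; exact hz.1.2⟩, by rw [hπ, hz.2]⟩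
    · intro y hy
      obtain ⟨z, hz, rfl⟩ := Finset.mem_image.1 hy
      rw [hS1] at hz
      rw [pow_two]
      apply mul_dvd_mul (dvd_index hP _ (h1 z hz.1 hz.2))
      have h3 := hf (π z)
      rw [Nat.subtype_card (S1.filter (fun z' => π z' = π z)) (fun z' => by
        rw [Finset.mem_filter, hS1, and_assoc])] at h3
      exact h3
  · rw [Finset.card_eq_sum_ones]
    apply dvd_sum_of_dvd (G := P) (p ^ 2) _ ?_ (fun _ => 1) (fun _ _ => rfl) ?_
    · intro g z hz
      rw [Finset.mem_filter, hmem] at hz ⊢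
      exact ⟨hS g z hz.1, by rw [index_smul]; exact hz.2⟩
    · intro z hz
      rw [Finset.mem_filter, hmem] at hz
      rw [mul_one]
      exact sq_dvd_index hP z (h0 z hz.1) hz.2

end Cfsg.Agent.Lib.H98KulRedAB
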