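import Cfsg.Agent.Lib.H98KulRedC
import Cfsg.Agent.Lib.H98KulRedAB

/-! PROJECT 4157, piece Red (100m): `s_a(G) ≡ s_a(P) mod p²`. -/
namespace Cfsg.Agent.Lib.H98KulRed
open Subgroup Cfsg.Agent.Lib.Helper98KulDefs
open scoped Pointwise

theorem normalizer_conj_smul {G : Type*} [Group G] (g : G) (H : Subgroup G) :
    normalizer ((MulAut.conj g • H : Subgroup G) : Set G) = MulAut.conj g • normalizer (H : Set G) :=
  (map_equiv_normalizer_eq H (MulAut.conj g)).symm

theorem conj_smul_eq_iff {G : Type*} [Group G] (g : G) (H : Subgroup G) :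
    MulAut.conj g • H = H ↔ g ∈ normalizer (H : Set G) :=
  mem_normalizer_iff_map_conj_eq.symm

theorem card_conj_smul {G : Type*} [Group G] (g : G) (H : Subgroup G) :
    Nat.card ↥(MulAut.conj g • H) = Nat.card H :=
  (Nat.card_congr (Subgroup.equivSMul (MulAut.conj g) H).toEquiv).symm

/-- Apply `H98KulRedAB.sq_dvd` with the group `↥P` acting on `Z = Y = Subgroup G` by conjugation
(`letI : MulAction ↥(P : Subgroup G) (Subgroup G) := MulAction.compHom _ ((MulAut.conj).comp (P : Subgroup G).subtype)` with `open Pointwise`, i.e. `g • H = MulAut.conj g • H`),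
`S = {H | |H| = p^a ∧ ¬ H ≤ P}` (invariant as `g ∈ P`), `π H = (P ⊓ N(H)) ⊔ H` (equivariant: `N(gHg⁻¹) = g N(H) g⁻¹`, `g P g⁻¹ = P`).
The stabilizer of `H` in `↥P` is `(normalizer H).subgroupOf P`, whose index is `(P ⊓ N(H)).relIndex P` (`Subgroup.inf_relIndex_left/right`, `relIndex = (subgroupOf).index`).
`h0`: `H98KulRedC.le_of_le_normalizer`.   `h1`: by `local_facts`, `y = π H` is a `p`-subgroup of order `p^n`; if `P` normalizes `y` then `y ≤ P` (`le_of_le_normalizer`), so `H ≤ P`: contradiction.   `hf`: `H98KulRedC.fibre_dvd`. -/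
theorem sq_dvd_out {G : Type*} [Group G] [Finite G] {p : ℕ} [Fact p.Prime] (P : Sylow p G) (n a : ℕ)
    (hP : Nat.card P = p ^ n) (ha : a < n) :
    p ^ 2 ∣ Nat.card {H : Subgroup G // Nat.card H = p ^ a ∧ ¬ H ≤ P} := by
  classical
  let _ : MulAction ↥(P : Subgroup G) (Subgroup G) :=
    MulAction.compHom _ ((MulAut.conj).comp (P : Subgroup G).subtype)
  have hsm : ∀ (g : ↥(P : Subgroup G)) (H : Subgroup G), g • H = MulAut.conj (g : G) • H :=
    fun g H => rfl
  have hstab : ∀ H : Subgroup G, MulAction.stabilizer ↥(P : Subgroup G) H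
      = (normalizer (H : Set G)).subgroupOf P := by
    intro H
    ext g
    rw [MulAction.mem_stabilizer_iff, hsm, conj_smul_eq_iff, mem_subgroupOf]
  have hidx : ∀ H : Subgroup G, (MulAction.stabilizer ↥(P : Subgroup G) H).index
      = ((P : Subgroup G) ⊓ normalizer (H : Set G)).relIndex P := by
    intro H
    rw [hstab, inf_relIndex_left, relIndex]
  have htop : ∀ H : Subgroup G, MulAction.stabilizer ↥(P : Subgroup G) H = ⊤ →
      (P : Subgroup G) ≤ normalizer (H : Set G) := by
    intro H h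
    rw [hstab, subgroupOf_eq_top] at h
    exact h
  have key := H98KulRedAB.sq_dvd (P := ↥(P : Subgroup G)) (Z := Subgroup G) (Y := Subgroup G) (p := p)
    P.isPGroup' {H : Subgroup G | Nat.card H = p ^ a ∧ ¬ H ≤ P} (Set.toFinite _)
    (by
      rintro g H ⟨hc, hn⟩
      refine ⟨by rw [hsm, card_conj_smul, hc], fun hle => hn (fun h hh => ?_)⟩
      have h1 : MulAut.conj (g : G) • h ∈ (P : Subgroup G) :=
        hle (smul_mem_pointwise_smul h _ H hh)
      rw [MulAut.smul_def, MulAut.conj_apply] at h1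
      have h2 := (P : Subgroup G).mul_mem ((P : Subgroup G).mul_mem ((P : Subgroup G).inv_mem g.2) h1) g.2
      simpa [mul_assoc] using h2)
    (fun H => ((P : Subgroup G) ⊓ normalizer (H : Set G)) ⊔ H)
    (by
      intro g H
      simp only [hsm]
      rw [smul_sup, smul_inf, conj_smul_eq_self_of_mem g.2, normalizer_conj_smul])
    (by
      rintro H ⟨hc, hn⟩ h
      exact hn (H98KulRedC.le_of_le_normalizer P H (IsPGroup.of_card hc) (htop H h)))
    (by
      rintro H ⟨hc, hn⟩ hi h
      rw [hidx] at hi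
      obtain ⟨h1, _, _⟩ := H98KulRedC.local_facts P n hP H (IsPGroup.of_card hc) hn hi
      exact hn (le_sup_right.trans
        (H98KulRedC.le_of_le_normalizer P _ (IsPGroup.of_card h1) (htop _ h))))
    (by
      intro y
      have h := H98KulRedC.fibre_dvd P n a hP ha y
      have e : Nat.card {z : Subgroup G // z ∈ {H : Subgroup G | Nat.card H = p ^ a ∧ ¬ H ≤ P} ∧
          (MulAction.stabilizer ↥(P : Subgroup G) z).index = p ∧
          ((P : Subgroup G) ⊓ normalizer (z : Set G)) ⊔ z = y} =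
          Nat.card {H : Subgroup G // (Nat.card H = p ^ a ∧ ¬ H ≤ P) ∧
            ((P : Subgroup G) ⊓ normalizer (H : Set G)).relIndex P = p ∧
            ((P : Subgroup G) ⊓ normalizer (H : Set G)) ⊔ H = y} := by
        refine Nat.card_congr (Equiv.subtypeEquivRight (fun H => ?_))
        rw [hidx]
        exact Iff.rfl
      rw [e]
      exact h)
  exact key

/-- split the subgroups of order `p^a` into those inside `P` (`H98KulSub.sc_subgroup`) and the others. -/
theorem sc_modEq {G : Type*} [Group G] [Finite G] {p : ℕ} [Fact p.Prime] (P : Sylow p G) (n a : ℕ)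
    (hP : Nat.card P = p ^ n) (ha : a < n) :
    sc p a G ≡ sc p a ↥(P : Subgroup G) [MOD p ^ 2] := by
  classical
  have h1 : sc p a G = sc p a ↥(P : Subgroup G)
      + Nat.card {H : Subgroup G // Nat.card H = p ^ a ∧ ¬ H ≤ P} := by
    rw [H98KulSub.sc_subgroup, sc, ← Nat.card_sum]
    refine Nat.card_congr ?_
    refine ((Equiv.sumCompl (fun x : {H : Subgroup G // Nat.card H = p ^ a} =>
      x.1 ≤ (P : Subgroup G))).symm).trans (Equiv.sumCongr ?_ ?_)
    · exact (Equiv.subtypeSubtypeEquivSubtypeInter (fun H : Subgroup G => Nat.card H = p ^ a)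
        (fun H : Subgroup G => H ≤ (P : Subgroup G))).trans
        (Equiv.subtypeEquivRight (fun H => and_comm))
    · exact Equiv.subtypeSubtypeEquivSubtypeInter _ (fun H : Subgroup G => ¬ H ≤ (P : Subgroup G))
  rw [h1]
  obtain ⟨c, hc⟩ := sq_dvd_out P n a hP ha
  rw [hc]
  exact (Nat.modEq_iff_dvd' (Nat.le_add_right _ _)).2 (by simp) |>.symm

end Cfsg.Agent.Lib.H98KulRed
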