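import Cfsg.Agent.Lib.H98KulRedNu

/-! PROJECT 4157, piece RedC (120m): the local analysis. -/
namespace Cfsg.Agent.Lib.H98KulRedC
open Subgroup Cfsg.Agent.Lib.Helper98KulDefs

theorem card_mul_relIndex' {G : Type*} [Group G] {H K : Subgroup G} (h : H ≤ K) :
    Nat.card H * H.relIndex K = Nat.card K := by
  have h1 := Subgroup.relIndex_mul_relIndex ⊥ H K bot_le h
  rwa [Subgroup.relIndex_bot_left, Subgroup.relIndex_bot_left] at h1

theorem between {G : Type*} [Group G] {p : ℕ} (hp : p.Prime) {M K L : Subgroup G} (hMK : M ≤ K)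
    (hKL : K ≤ L) (hML : M.relIndex L = p) : (K ≤ M ∧ K.relIndex L = p) ∨ L ≤ K := by
  have h := Subgroup.relIndex_mul_relIndex M K L hMK hKL
  rw [hML] at h
  rcases (Nat.dvd_prime hp).1 ⟨_, h.symm⟩ with h1 | h1
  · left
    refine ⟨Subgroup.relIndex_eq_one.1 h1, ?_⟩
    rw [h1, one_mul] at h
    exact h
  · right
    rw [h1] at h
    have h2 : K.relIndex L = 1 := Nat.eq_of_mul_eq_mul_left hp.pos (h.trans (mul_one p).symm)
    exact Subgroup.relIndex_eq_one.1 h2

/-- A `p`-subgroup `H` normalized by a Sylow `p`-subgroup `P` lies in `P` (`H ⊔ P` is a `p`-group [`IsPGroup` of a product `H P` with `P ≤ normalizer H`: e.g. `IsPGroup.to_sup_of_normal_left'`/`..right'`], contains `P`,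
so equals `P` by `Sylow.is_maximal'`). -/
theorem le_of_le_normalizer {G : Type*} [Group G] [Finite G] {p : ℕ} [Fact p.Prime] (P : Sylow p G)
    (H : Subgroup G) (hH : IsPGroup p H) (hN : (P : Subgroup G) ≤ normalizer (H : Set G)) : H ≤ P := by
  have h1 : IsPGroup p (H ⊔ P : Subgroup G) := hH.to_sup_of_normal_left' P.2 hN
  have h2 := P.is_maximal' h1 le_sup_right
  exact le_sup_left.trans h2.le

/-- Let `|P| = p^n`, `H` a `p`-subgroup with `¬ H ≤ P` and `M := P ⊓ N_G(H)` of index `p` in `P` (`relIndex`).  Put `y := M ⊔ H`.  Then `|y| = p^n`, `H ≤ y ≤ N_G(H)`, and `y ⊓ P = M`.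
Proof.  `M` normalizes `H`, so `y = M H` is a `p`-group, `y ≤ N_G(H)`.  `H ≰ M` so `M < y`, `|y| ≥ p |M| = p^n`, and `|y| ≤ p^n` as `y` is a `p`-subgroup (`|y|` is a power of `p` dividing `|G|`, `|P| = p^n` is the full power:
`Sylow.card_eq_multiplicity`, or `IsPGroup.exists_le_sylow` + conjugacy/`Sylow.card_eq_card`...).   `M ≤ y ⊓ P ≤ P ⊓ N_G(H) = M`. -/
theorem local_facts {G : Type*} [Group G] [Finite G] {p : ℕ} [Fact p.Prime] (P : Sylow p G) (n : ℕ)
    (hP : Nat.card P = p ^ n) (H : Subgroup G) (hH : IsPGroup p H) (hHP : ¬ H ≤ P)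
    (hM : ((P : Subgroup G) ⊓ normalizer (H : Set G)).relIndex P = p) :
    Nat.card ↥(((P : Subgroup G) ⊓ normalizer (H : Set G)) ⊔ H) = p ^ n ∧
      ((P : Subgroup G) ⊓ normalizer (H : Set G)) ⊔ H ≤ normalizer (H : Set G) ∧
      (((P : Subgroup G) ⊓ normalizer (H : Set G)) ⊔ H) ⊓ P = (P : Subgroup G) ⊓ normalizer (H : Set G) := by
  have hp : p.Prime := Fact.out
  generalize hMdef : (P : Subgroup G) ⊓ normalizer (H : Set G) = M at hM ⊢
  have hMP : M ≤ P := hMdef ▸ inf_le_left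
  have hMN : M ≤ normalizer (H : Set G) := hMdef ▸ inf_le_right
  have hMp : IsPGroup p M := P.2.to_le hMP
  have hyp : IsPGroup p (M ⊔ H : Subgroup G) := hMp.to_sup_of_normal_right' hH hMN
  have hyN : M ⊔ H ≤ normalizer (H : Set G) := sup_le hMN le_normalizer
  refine ⟨?_, hyN, le_antisymm ?_ (le_inf le_sup_left hMP)⟩
  swap
  · rw [← hMdef] at hyN ⊢
    exact le_inf inf_le_right (inf_le_left.trans hyN)
  obtain ⟨P', hP'⟩ := hyp.exists_le_sylow
  have hcP' : Nat.card P' = p ^ n := by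
    rw [P'.card_eq_multiplicity, ← P.card_eq_multiplicity, hP]
  have h1 : Nat.card ↥(M ⊔ H) ∣ p ^ n := hcP' ▸ Subgroup.card_dvd_of_le hP'
  have h2 : Nat.card M * p = p ^ n := by
    have h7 := (card_mul_relIndex' hMP).trans hP
    rwa [hM] at h7
  have h3 := card_mul_relIndex' (le_sup_left : M ≤ M ⊔ H)
  have h4 : M.relIndex (M ⊔ H) ≠ 1 := by
    intro h
    exact hHP ((le_sup_right.trans (Subgroup.relIndex_eq_one.1 h)).trans hMP)
  have h5 : p ∣ M.relIndex (M ⊔ H) := by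
    have h6 : M.relIndex (M ⊔ H) ∣ p ^ n := (Dvd.intro_left _ h3).trans h1
    obtain ⟨j, _, hj⟩ := (Nat.dvd_prime_pow hp).1 h6
    rcases j with _ | j
    · exact absurd (by rw [hj, pow_zero]) h4
    · rw [hj]
      exact dvd_pow_self p (Nat.succ_ne_zero j)
  apply Nat.dvd_antisymm h1
  rw [← h2, ← h3]
  exact mul_dvd_mul_left _ h5

/-- The fibre count.  For every subgroup `y` of `G`, `p` divides the number of `H` with `|H| = p^a`, `¬ H ≤ P`, `|P : P ⊓ N(H)| = p`, `(P ⊓ N(H)) ⊔ H = y`.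
Proof.  If there is no such `H` the number is 0.  Otherwise (`local_facts` for one such `H₀`) `|y| = p^n` and `M := y ⊓ P` has index `p` in `P`, so `|M| = p^(n-1)`, `M` has index `p` in `y`.  Claim: the set is
`{H | H ≤ y, y ≤ N(H), |H| = p^a, ¬ H ≤ M}`, which is in bijection (`subgroupOf y` / `map y.subtype`) with the normal subgroups of `↥y` of order `p^a` not contained in `M.subgroupOf y`; conclude by `H98KulRedNu.dvd_card n a`.
(⊆) by `local_facts` (`H ≤ M ≤ P` is excluded).   (⊇) `H ≤ y ≤ N(H)`, `H ≰ M`: then `H ≰ P` (else `H ≤ y ⊓ P`); `M ≤ P ⊓ N(H) ≤ P`, and `P ⊓ N(H) ≠ P` by `le_of_le_normalizer`; as `M` has prime index in `P`, `P ⊓ N(H) = M`;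
`M < M ⊔ H ≤ y` and `M` has prime index in `y`, so `M ⊔ H = y`. -/
theorem fibre_dvd {G : Type*} [Group G] [Finite G] {p : ℕ} [Fact p.Prime] (P : Sylow p G) (n a : ℕ)
    (hP : Nat.card P = p ^ n) (ha : a < n) (y : Subgroup G) :
    p ∣ Nat.card {H : Subgroup G // (Nat.card H = p ^ a ∧ ¬ H ≤ P) ∧
      ((P : Subgroup G) ⊓ normalizer (H : Set G)).relIndex P = p ∧
      ((P : Subgroup G) ⊓ normalizer (H : Set G)) ⊔ H = y} := by
  have hp : p.Prime := Fact.out
  by_cases hne : Nonempty {H : Subgroup G // (Nat.card H = p ^ a ∧ ¬ H ≤ P) ∧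
      ((P : Subgroup G) ⊓ normalizer (H : Set G)).relIndex P = p ∧
      ((P : Subgroup G) ⊓ normalizer (H : Set G)) ⊔ H = y}
  swap
  · rw [not_nonempty_iff] at hne
    rw [Nat.card_of_isEmpty]
    exact dvd_zero p
  obtain ⟨⟨H₀, ⟨hc₀, hn₀⟩, hr₀, hy₀⟩⟩ := hne
  obtain ⟨f1, f2, f3⟩ := local_facts P n hP H₀ (IsPGroup.of_card hc₀) hn₀ hr₀
  rw [hy₀] at f1 f2 f3
  have hMr : (y ⊓ (P : Subgroup G)).relIndex P = p := by rw [f3]; exact hr₀
  have hMy : (y ⊓ (P : Subgroup G)).relIndex y = p := by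
    have h1 := card_mul_relIndex' (inf_le_left : y ⊓ (P : Subgroup G) ≤ y)
    have h2 := card_mul_relIndex' (inf_le_right : y ⊓ (P : Subgroup G) ≤ P)
    rw [hMr] at h2
    rw [f1] at h1
    exact Nat.eq_of_mul_eq_mul_left Nat.card_pos (h1.trans (h2.trans hP).symm)
  have key : ∀ H : Subgroup G, ((Nat.card H = p ^ a ∧ ¬ H ≤ P) ∧
      ((P : Subgroup G) ⊓ normalizer (H : Set G)).relIndex P = p ∧
      ((P : Subgroup G) ⊓ normalizer (H : Set G)) ⊔ H = y) ↔
      (H ≤ y ∧ y ≤ normalizer (H : Set G) ∧ Nat.card H = p ^ a ∧ ¬ H ≤ y ⊓ (P : Subgroup G)) := by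
    intro H
    constructor
    · rintro ⟨⟨hc, hn⟩, hr, hy⟩
      obtain ⟨g1, g2, g3⟩ := local_facts P n hP H (IsPGroup.of_card hc) hn hr
      rw [hy] at g1 g2 g3
      exact ⟨hy ▸ le_sup_right, g2, hc, fun h => hn (h.trans inf_le_right)⟩
    · rintro ⟨hHy, hyN, hc, hnM⟩
      have hn : ¬ H ≤ P := fun h => hnM (le_inf hHy h)
      have hMK : y ⊓ (P : Subgroup G) ≤ (P : Subgroup G) ⊓ normalizer (H : Set G) :=
        le_inf inf_le_right (inf_le_left.trans hyN)
      rcases between hp hMK inf_le_left hMr with ⟨hKM, hKr⟩ | hPK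
      · refine ⟨⟨hc, hn⟩, hKr, ?_⟩
        have hK : (P : Subgroup G) ⊓ normalizer (H : Set G) = y ⊓ (P : Subgroup G) :=
          le_antisymm hKM hMK
        rw [hK]
        rcases between hp (le_sup_left : y ⊓ (P : Subgroup G) ≤ (y ⊓ (P : Subgroup G)) ⊔ H)
          (sup_le inf_le_left hHy) hMy with ⟨h1, _⟩ | h1
        · exact absurd (le_sup_right.trans h1) hnM
        · exact le_antisymm (sup_le inf_le_left hHy) h1
      · exact absurd (le_of_le_normalizer P H (IsPGroup.of_card hc) (hPK.trans inf_le_right)) hn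
  rw [Nat.card_congr (Equiv.subtypeEquivRight key)]
  have hbij : Nat.card {H : Subgroup G // H ≤ y ∧ y ≤ normalizer (H : Set G) ∧ Nat.card H = p ^ a ∧
        ¬ H ≤ y ⊓ (P : Subgroup G)} =
      Nat.card {H' : Subgroup ↥y // H'.Normal ∧ Nat.card H' = p ^ a ∧
        ¬ H' ≤ (y ⊓ (P : Subgroup G)).subgroupOf y} := by
    apply Nat.card_congr
    refine Equiv.ofBijective (fun H => ⟨H.1.subgroupOf y,
      (Subgroup.normal_subgroupOf_iff_le_normalizer H.2.1).2 H.2.2.1,
      (Nat.card_congr (Subgroup.subgroupOfEquivOfLe H.2.1).toEquiv).trans H.2.2.2.1,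
      fun h => H.2.2.2.2 (fun x hx => h (x := ⟨x, H.2.1 hx⟩) hx)⟩) ⟨?_, ?_⟩
    · intro H₁ H₂ h
      have h1 : H₁.1.subgroupOf y = H₂.1.subgroupOf y := congrArg Subtype.val h
      rw [Subgroup.subgroupOf_inj, inf_eq_left.2 H₁.2.1, inf_eq_left.2 H₂.2.1] at h1
      exact Subtype.ext h1
    · rintro ⟨H', hn', hc', hM'⟩
      have hback : (H'.map y.subtype).subgroupOf y = H' :=
        Subgroup.comap_map_eq_self_of_injective y.subtype_injective H'
      refine ⟨⟨H'.map y.subtype, Subgroup.map_subtype_le H', ?_, ?_, ?_⟩, Subtype.ext hback⟩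
      · rw [← Subgroup.normal_subgroupOf_iff_le_normalizer (Subgroup.map_subtype_le H'), hback]
        exact hn'
      · rw [Subgroup.card_map_of_injective y.subtype_injective]
        exact hc'
      · intro h
        exact hM' (Subgroup.map_le_iff_le_comap.1 h)
  rw [hbij]
  exact Cfsg.Agent.Lib.H98KulRedNu.dvd_card n a f1 ha _ hMy

end Cfsg.Agent.Lib.H98KulRedC
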