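import Cfsg.Agent.Lib.H98KulSub
import Cfsg.Agent.S3975
import Cfsg.Agent.S3976

/-! PROJECT 4157, piece RedNu (75m). -/
namespace Cfsg.Agent.Lib.H98KulRedNu
open Subgroup Cfsg.Agent.Lib.Helper98KulDefs
open Pointwise MulAction

/-- In a group `Q` of order `p^n`, `M` of index `p`, `a < n`: the number of NORMAL subgroups of order `p^a` not contained in `M` is divisible by `p`. -/
theorem dvd_card {Q : Type*} [Group Q] [Finite Q] {p : ℕ} [Fact p.Prime] (n a : ℕ) (hQ : Nat.card Q = p ^ n)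
    (ha : a < n) (M : Subgroup Q) (hM : M.index = p) :
    p ∣ Nat.card {H : Subgroup Q // H.Normal ∧ Nat.card H = p ^ a ∧ ¬ H ≤ M} := by
  classical
  have hp : p.Prime := Fact.out
  have hMn : M.Normal := by
    apply Subgroup.normal_of_index_eq_minFac_card
    rw [hM, hQ, Nat.Prime.pow_minFac hp (by omega)]
  have hMc : Nat.card M = p ^ (n - 1) := by
    have h1 := M.card_mul_index
    rw [hM, hQ] at h1
    have h2 : p ^ n = p ^ (n - 1) * p := by
      rw [← pow_succ, Nat.sub_add_cancel (by omega)]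
    rw [h2] at h1
    exact Nat.eq_of_mul_eq_mul_right hp.pos h1
  have hP : IsPGroup p (ConjAct Q) := IsPGroup.of_card (n := n) hQ
  let Y : SubMulAction (ConjAct Q) (Subgroup Q) := ⟨{H | H ≤ M ∧ Nat.card H = p ^ a}, fun g H hH => by
    constructor
    · show (g • H : Subgroup Q) ≤ M
      have h1 : (g • H : Subgroup Q) ≤ g • M := Subgroup.pointwise_smul_le_pointwise_smul_iff.2 hH.1
      rwa [Subgroup.Normal.conjAct hMn g] at h1
    · show Nat.card (g • H : Subgroup Q) = p ^ a
      rw [← Nat.card_congr (Subgroup.equivSMul g H).toEquiv]; exact hH.2⟩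
  have h1 := hP.card_modEq_card_fixedPoints Y
  have h2 : Nat.card Y ≡ 1 [MOD p] := by
    have h3 : Nat.card Y = sc p a ↥M := (H98KulSub.sc_subgroup p a M).symm
    rw [h3]
    exact Cfsg.Agent.S3975.result p a hp (by rw [hMc]; exact pow_dvd_pow p (by omega))
  have h3 : Nat.card (fixedPoints (ConjAct Q) Y) =
      Nat.card {H : Subgroup Q // H.Normal ∧ Nat.card H = p ^ a ∧ H ≤ M} := by
    apply Nat.card_congr
    refine ⟨fun H => ⟨H.1.1, ?_, H.1.2.2, H.1.2.1⟩, fun H => ⟨⟨H.1, H.2.2.2, H.2.2.1⟩, ?_⟩,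
      fun _ => rfl, fun _ => rfl⟩
    · constructor
      intro x hx g
      have h0 := H.2 (ConjAct.toConjAct g)
      have h4 : ConjAct.toConjAct g • H.1.1 = H.1.1 := congrArg Subtype.val h0
      rw [← h4]
      have h5 := Subgroup.smul_mem_pointwise_smul x (ConjAct.toConjAct g) H.1.1 hx
      rwa [ConjAct.toConjAct_smul] at h5
    · intro g
      apply Subtype.ext
      have := H.2.1
      exact Subgroup.Normal.conjAct this g
  have hB : Nat.card {H : Subgroup Q // H.Normal ∧ Nat.card H = p ^ a ∧ H ≤ M} ≡ 1 [MOD p] := by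
    rw [← h3]
    exact h1.symm.trans h2
  have hA := Cfsg.Agent.S3976.result (G := Q) p n a hp hQ ha.le
  have hsplit : Nat.card {H : Subgroup Q // H.Normal ∧ Nat.card H = p ^ a} =
      Nat.card {H : Subgroup Q // H.Normal ∧ Nat.card H = p ^ a ∧ H ≤ M} +
      Nat.card {H : Subgroup Q // H.Normal ∧ Nat.card H = p ^ a ∧ ¬ H ≤ M} := by
    rw [← Nat.card_sum]
    apply Nat.card_congr
    exact
      { toFun := fun H => if h : H.1 ≤ M then Sum.inl ⟨H.1, H.2.1, H.2.2, h⟩
          else Sum.inr ⟨H.1, H.2.1, H.2.2, h⟩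
        invFun := fun x => Sum.elim (fun H => ⟨H.1, H.2.1, H.2.2.1⟩) (fun H => ⟨H.1, H.2.1, H.2.2.1⟩) x
        left_inv := by
          intro H
          by_cases h : H.1 ≤ M <;> simp [h]
        right_inv := by
          rintro (H | H)
          · simp [H.2.2.2]
          · simp [H.2.2.2] }
  rw [hsplit] at hA
  have h5 : 1 + Nat.card {H : Subgroup Q // H.Normal ∧ Nat.card H = p ^ a ∧ ¬ H ≤ M} ≡ 1 + 0 [MOD p] :=
    ((hB.symm.add_right _).trans hA)
  exact (Nat.modEq_zero_iff_dvd).1 (Nat.ModEq.add_left_cancel' 1 h5)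

end Cfsg.Agent.Lib.H98KulRedNu
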