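import Mathlib

/-! Project 4135 (helper98): a normal subgroup `N` with two `G`-class sizes containing a
noncentral Sylow subgroup of `G` is nilpotent.  Vocabulary. -/

namespace Cfsg.Agent.Lib.Helper98TwoDefs

/-- `X` acts on the abelian group `K`; every nonidentity element of `X` has fixed point set
exactly `Z`. -/
def Fx {X K : Type*} [Group X] [CommGroup K] (φ : X →* MulAut K) (Z : Subgroup K) : Prop :=
  ∀ g : X, g ≠ 1 → ∀ k : K, φ g k = k ↔ k ∈ Z

/-- the class size hypothesis. -/
def Two {G : Type*} [Group G] (N : Subgroup G) (m : ℕ) : Prop :=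
  ∀ x ∈ N, (Subgroup.centralizer ({x} : Set G)).index = 1 ∨
    (Subgroup.centralizer ({x} : Set G)).index = m

end Cfsg.Agent.Lib.Helper98TwoDefs
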