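import Mathlib
import Cfsg.Agent.Lib.Helper98TwoDefs

namespace Cfsg.Agent.Lib.H98TwoB1
open Cfsg.Agent.Lib.Helper98TwoDefs

theorem index_eq {G : Type*} [Group G] (N : Subgroup G) (m : ℕ) (h : Two N m)
    (x : G) (hx : x ∈ N) (hxc : x ∉ Subgroup.center G) :
    (Subgroup.centralizer ({x} : Set G)).index = m := by
  rcases h x hx with h1 | h1
  · exfalso
    apply hxc
    rw [Subgroup.index_eq_one] at h1
    rw [Subgroup.mem_center_iff]
    intro g
    have hg : g ∈ Subgroup.centralizer ({x} : Set G) := by rw [h1]; trivial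
    rw [Subgroup.mem_centralizer_singleton_iff] at hg
    exact hg
  · exact h1

theorem mem_of_rpow {G : Type*} [Group G] [Finite G] (r : ℕ) [Fact r.Prime]
    (R : Sylow r G) (N : Subgroup G) [hN : N.Normal]
    (hRN : (R : Subgroup G) ≤ N) (u : G) (n : ℕ) (hu : orderOf u = r ^ n) : u ∈ N := by
  have hz : IsPGroup r (Subgroup.zpowers u) := by
    apply IsPGroup.of_card (n := n)
    rw [Nat.card_zpowers, hu]
  obtain ⟨Q, hQ⟩ := hz.exists_le_sylow
  obtain ⟨g, hg⟩ := MulAction.exists_smul_eq G R Q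
  have h1 : u ∈ (Q : Subgroup G) := hQ (Subgroup.mem_zpowers u)
  rw [← hg, Sylow.coe_subgroup_smul, Subgroup.mem_pointwise_smul_iff_inv_smul_mem] at h1
  have h2 := hRN h1
  have h3 := hN.conj_mem _ h2 g
  simpa [MulAut.smul_def, mul_assoc] using h3

/-- est 60m.  Suppose not: every element of `r`-power order of `C(y)` is central in `G`.
Pick `x0 ∈ R`, `x0 ∉ Z(G)` (`x0 ∈ N`).  Both `C(x0)` and `C(y)` have index `m` (index 1 would mean central), so
`|C(x0)| = |C(y)|`.  Let `P1` be a Sylow `r`-subgroup of `C(y)`, viewed in `G`: `|P1| = r^(v_r |C(y)|)`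
(`Sylow.card_eq_multiplicity`), and `P1 ≤ Z(G)` by assumption.  Then `P2 := P1 ⊔ zpowers x0` is an `r`-subgroup
(`P1` central, so it is a product of commuting `r`-groups; or: it is contained in ... ; simplest: `P1 ≤ Z(G)` is normal,
`IsPGroup` of `P1 ⊔ zpowers x0` by `IsPGroup.to_sup_of_normal_left`/`right`), `P2 ≤ C(x0)`, `P1 < P2` as `x0 ∉ Z(G)`.
But an `r`-subgroup of `C(x0)` has order dividing `r^(v_r |C(x0)|) = |P1|`
(its order is a power of `r` dividing `|C(x0)|`): contradiction.
Finally an element `u` of `r`-power order lies in a Sylow `r`-subgroup, a conjugate of `R ≤ N`, so `u ∈ N`. -/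
theorem exists_u {G : Type*} [Group G] [Finite G] (r : ℕ) [Fact r.Prime]
    (R : Sylow r G) (hR : ¬ (R : Subgroup G) ≤ Subgroup.center G) (N : Subgroup G) [N.Normal]
    (hRN : (R : Subgroup G) ≤ N) (m : ℕ) (h : Two N m)
    (y : G) (hy : y ∈ N) (hyc : y ∉ Subgroup.center G) :
    ∃ u ∈ N, Commute u y ∧ u ∉ Subgroup.center G ∧ ∃ n : ℕ, orderOf u = r ^ n := by
  by_contra hcon
  have hr : r.Prime := Fact.out
  have hall : ∀ u : G, Commute u y → (∃ n : ℕ, orderOf u = r ^ n) → u ∈ Subgroup.center G := by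
    intro u huy hu
    by_contra huc
    obtain ⟨n, hn⟩ := hu
    exact hcon ⟨u, mem_of_rpow r R N hRN u n hn, huy, huc, n, hn⟩
  obtain ⟨x0, hx0R, hx0c⟩ := SetLike.not_le_iff_exists.1 hR
  have hix := index_eq N m h x0 (hRN hx0R) hx0c
  have hiy := index_eq N m h y hy hyc
  have hm : m ≠ 0 := by
    rw [← hiy]; exact Subgroup.index_ne_zero_of_finite
  have hcard : Nat.card (Subgroup.centralizer ({x0} : Set G)) =
      Nat.card (Subgroup.centralizer ({y} : Set G)) := by
    have h1 := Subgroup.card_mul_index (Subgroup.centralizer ({x0} : Set G))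
    have h2 := Subgroup.card_mul_index (Subgroup.centralizer ({y} : Set G))
    rw [hix] at h1
    rw [hiy] at h2
    exact Nat.eq_of_mul_eq_mul_right (Nat.pos_of_ne_zero hm) (h1.trans h2.symm)
  obtain ⟨P1⟩ : Nonempty (Sylow r (Subgroup.centralizer ({y} : Set G))) := inferInstance
  have hP1card := P1.card_eq_multiplicity
  have hP1p : IsPGroup r ((P1 : Subgroup (Subgroup.centralizer ({y} : Set G))).map
      (Subgroup.centralizer ({y} : Set G)).subtype) := P1.2.map _
  have hP1c : (P1 : Subgroup (Subgroup.centralizer ({y} : Set G))).map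
      (Subgroup.centralizer ({y} : Set G)).subtype ≤ Subgroup.center G := by
    rintro _ ⟨u, hu, rfl⟩
    apply hall
    · have := u.2
      rw [Subgroup.mem_centralizer_singleton_iff] at this
      exact this
    · obtain ⟨k, hk⟩ := P1.2 ⟨u, hu⟩
      have hk' : u ^ r ^ k = 1 := by
        have := congrArg Subtype.val hk
        simpa using this
      have h1 : orderOf u ∣ r ^ k := orderOf_dvd_of_pow_eq_one hk'
      obtain ⟨j, _, hj⟩ := (Nat.dvd_prime_pow hr).1 h1
      exact ⟨j, by
        rw [← hj]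
        exact Subgroup.orderOf_coe u⟩
  have hcardmap : Nat.card ((P1 : Subgroup (Subgroup.centralizer ({y} : Set G))).map
      (Subgroup.centralizer ({y} : Set G)).subtype) =
      Nat.card (P1 : Subgroup (Subgroup.centralizer ({y} : Set G))) :=
    Subgroup.card_map_of_injective (Subgroup.subtype_injective _)
  generalize hQ : (P1 : Subgroup (Subgroup.centralizer ({y} : Set G))).map
      (Subgroup.centralizer ({y} : Set G)).subtype = Q at hP1p hP1c hcardmap
  have hQn : Q.Normal := by
    constructor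
    intro n hn g
    have := (Subgroup.mem_center_iff.1 (hP1c hn)) g
    rw [this, mul_inv_cancel_right]
    exact hn
  have hzx : IsPGroup r (Subgroup.zpowers x0) := by
    obtain ⟨k, hk⟩ := R.2 ⟨x0, hx0R⟩
    have hk' : x0 ^ r ^ k = 1 := by
      have := congrArg Subtype.val hk
      simpa using this
    have h1 : orderOf x0 ∣ r ^ k := orderOf_dvd_of_pow_eq_one hk'
    obtain ⟨j, _, hj⟩ := (Nat.dvd_prime_pow hr).1 h1
    apply IsPGroup.of_card (n := j)
    rw [Nat.card_zpowers, hj]
  have hP2 : IsPGroup r (Q ⊔ Subgroup.zpowers x0 : Subgroup G) :=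
    hP1p.to_sup_of_normal_left hzx
  have hP2le : Q ⊔ Subgroup.zpowers x0 ≤ Subgroup.centralizer ({x0} : Set G) := by
    apply sup_le
    · intro q hq
      rw [Subgroup.mem_centralizer_singleton_iff]
      exact ((Subgroup.mem_center_iff.1 (hP1c hq)) x0).symm
    · rw [Subgroup.zpowers_le, Subgroup.mem_centralizer_singleton_iff]
  have hlt : Q < Q ⊔ Subgroup.zpowers x0 := by
    apply lt_of_le_of_ne le_sup_left
    intro heq
    apply hx0c
    apply hP1c
    rw [heq]
    exact (le_sup_right : Subgroup.zpowers x0 ≤ _) (Subgroup.mem_zpowers x0)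
  obtain ⟨k, hk⟩ := IsPGroup.iff_card.1 hP2
  have hdvd : r ^ k ∣ Nat.card (Subgroup.centralizer ({x0} : Set G)) := by
    rw [← hk]; exact Subgroup.card_dvd_of_le hP2le
  rw [hcard, hr.pow_dvd_iff_le_factorization Nat.card_pos.ne'] at hdvd
  have hcl : Nat.card Q < Nat.card (Q ⊔ Subgroup.zpowers x0 : Subgroup G) :=
    Set.ncard_lt_ncard (s := (Q : Set G)) (t := ((Q ⊔ Subgroup.zpowers x0 : Subgroup G) : Set G))
      (SetLike.coe_ssubset_coe.2 hlt) (Set.toFinite _)
  rw [hk, hcardmap, hP1card] at hcl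
  exact absurd (Nat.pow_le_pow_right hr.pos hdvd) (not_le.2 hcl)

end Cfsg.Agent.Lib.H98TwoB1
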