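import Mathlib
import Cfsg.Agent.Lib.Helper98TwoDefs

namespace Cfsg.Agent.Lib.H98TwoKey
open Cfsg.Agent.Lib.Helper98TwoDefs

theorem index_ne_one {G : Type*} [Group G] {x : G} (hxc : x ∉ Subgroup.center G) :
    (Subgroup.centralizer ({x} : Set G)).index ≠ 1 := by
  intro h1
  rw [Subgroup.index_eq_one] at h1
  apply hxc
  rw [Subgroup.mem_center_iff]
  intro g
  have hg : g ∈ Subgroup.centralizer ({x} : Set G) := by rw [h1]; trivial
  rw [Subgroup.mem_centralizer_singleton_iff] at hg
  exact hg

/-- est 15m.  `x ∉ Z(G)` so index of `C(x)` is not 1 (index 1 means `C(x) = ⊤`, i.e. `x` central),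
same for `w`; so both indices are `m`; `C(x) ≤ C(w)` of the same finite index are equal
(`Subgroup.eq_of_le_of_card_ge` / `Subgroup.relIndex_mul_index`, or `Subgroup.index_eq_card` ...). -/
theorem eq_of_le {G : Type*} [Group G] [Finite G] {N : Subgroup G} {m : ℕ} (h : Two N m)
    {x w : G} (hx : x ∈ N) (hw : w ∈ N) (hxc : x ∉ Subgroup.center G) (hwc : w ∉ Subgroup.center G)
    (hle : Subgroup.centralizer ({x} : Set G) ≤ Subgroup.centralizer ({w} : Set G)) :
    Subgroup.centralizer ({x} : Set G) = Subgroup.centralizer ({w} : Set G) := by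
  have h1 : (Subgroup.centralizer ({x} : Set G)).index = m :=
    (h x hx).resolve_left (index_ne_one hxc)
  have h2 : (Subgroup.centralizer ({w} : Set G)).index = m :=
    (h w hw).resolve_left (index_ne_one hwc)
  have h3 := Subgroup.relIndex_mul_index hle
  rw [h1, h2] at h3
  have hm : m ≠ 0 := by
    rw [← h1]; exact Subgroup.index_ne_zero_of_finite
  have h4 : (Subgroup.centralizer ({x} : Set G)).relIndex (Subgroup.centralizer ({w} : Set G)) = 1 := by
    have : (Subgroup.centralizer ({x} : Set G)).relIndex (Subgroup.centralizer ({w} : Set G)) * m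
        = 1 * m := by rw [h3, one_mul]
    exact Nat.eq_of_mul_eq_mul_right (Nat.pos_of_ne_zero hm) this
  exact le_antisymm hle (Subgroup.relIndex_eq_one.1 h4)

theorem exists_pow_left {G : Type*} [Group G] {x y : G} (hxy : Commute x y)
    (hco : (orderOf x).Coprime (orderOf y)) : ∃ k : ℕ, (x * y) ^ k = x := by
  obtain ⟨k, hk⟩ := exists_pow_eq_self_of_coprime (x := x) hco.symm
  refine ⟨orderOf y * k, ?_⟩
  rw [pow_mul, hxy.mul_pow, pow_orderOf_eq_one, mul_one, hk]

theorem cent_pow_le {G : Type*} [Group G] (w : G) (k : ℕ) :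
    Subgroup.centralizer ({w} : Set G) ≤ Subgroup.centralizer ({w ^ k} : Set G) := by
  intro g hg
  rw [Subgroup.mem_centralizer_singleton_iff] at hg ⊢
  have : Commute g w := hg
  exact (this.pow_right k)

/-- est 30m.  `x, y` commute and have coprime orders, so both are powers of `x * y`
(e.g. `x = (x*y)^(a)` with `a ≡ 1 mod o(x)`, `a ≡ 0 mod o(y)`, `Nat.chineseRemainder`), so
`C(x*y) ≤ C(x)` and `C(x*y) ≤ C(y)`, and `x*y` is not central (else its power `x` is central).
`x * y ∈ N`.  By `eq_of_le` (applied to `x*y`, `x`) `C(x*y) = C(x)`, hence `C(x) ≤ C(y)`. -/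
theorem key {G : Type*} [Group G] [Finite G] {N : Subgroup G} {m : ℕ} (h : Two N m)
    {x y : G} (hx : x ∈ N) (hy : y ∈ N) (hxy : Commute x y)
    (hco : (orderOf x).Coprime (orderOf y)) (hxc : x ∉ Subgroup.center G) :
    Subgroup.centralizer ({x} : Set G) ≤ Subgroup.centralizer ({y} : Set G) := by
  obtain ⟨k, hk⟩ := exists_pow_left hxy hco
  obtain ⟨j, hj⟩ := exists_pow_left hxy.symm hco.symm
  rw [← hxy.eq] at hj
  have h1 : Subgroup.centralizer ({x * y} : Set G) ≤ Subgroup.centralizer ({x} : Set G) := by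
    have := cent_pow_le (x * y) k
    rwa [hk] at this
  have h2 : Subgroup.centralizer ({x * y} : Set G) ≤ Subgroup.centralizer ({y} : Set G) := by
    have := cent_pow_le (x * y) j
    rwa [hj] at this
  have hc : x * y ∉ Subgroup.center G := by
    intro hc
    apply hxc
    rw [← hk]
    exact pow_mem hc k
  rw [← eq_of_le h (mul_mem hx hy) hx hc hxc h1]
  exact h2

end Cfsg.Agent.Lib.H98TwoKey
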