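import Mathlib
import Cfsg.Agent.Lib.Helper98TwoDefs
import Cfsg.Agent.Lib.H98TwoKey

namespace Cfsg.Agent.Lib.H98TwoB2
open Cfsg.Agent.Lib.Helper98TwoDefs

theorem mem_cen {G : Type*} [Group G] (a g : G) :
    g ∈ Subgroup.centralizer ({a} : Set G) ↔ Commute g a := by
  rw [Subgroup.mem_centralizer_iff]
  constructor
  · intro h
    exact (h a (Set.mem_singleton a)).symm
  · intro h b hb
    rw [Set.mem_singleton_iff] at hb
    subst hb
    exact h.symm

theorem le_centralizer {G : Type*} [Group G] [Finite G] (r : ℕ) [Fact r.Prime]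
    (N : Subgroup G) (m : ℕ) (h : Two N m)
    (y u : G) (hy : y ∈ N) (hu : u ∈ N) (hyc : y ∉ Subgroup.center G) (huc : u ∉ Subgroup.center G)
    (huy : Commute u y) (hyr : (orderOf y).Coprime r) (hur : ∃ n : ℕ, orderOf u = r ^ n)
    (k : G) (hk : k ∈ N) (hky : Commute k y) :
    Subgroup.centralizer ({y} : Set G) ≤ Subgroup.centralizer ({k} : Set G) := by
  have hr : r.Prime := Fact.out
  obtain ⟨n, hn⟩ := hur
  have hyu : Subgroup.centralizer ({y} : Set G) ≤ Subgroup.centralizer ({u} : Set G) :=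
    H98TwoKey.key h hy hu huy.symm (by rw [hn]; exact Nat.Coprime.pow_right n hyr) hyc
  have hku : Commute k u := (mem_cen u k).1 (hyu ((mem_cen y k).2 hky))
  obtain ⟨a, t, ht, hat⟩ := Nat.exists_eq_pow_mul_and_not_dvd (orderOf_pos k).ne' r hr.ne_one
  have htr : Nat.Coprime t r := ((Nat.Prime.coprime_iff_not_dvd hr).2 ht).symm
  have ht0 : t ≠ 0 := by
    rintro rfl
    exact ht (dvd_zero r)
  have hra0 : r ^ a ≠ 0 := pow_ne_zero a hr.ne_zero
  have o1 : orderOf (k ^ t) = r ^ a := by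
    rw [orderOf_pow_of_dvd ht0 (by rw [hat]; exact Dvd.intro_left _ rfl), hat]
    exact Nat.mul_div_cancel _ (Nat.pos_of_ne_zero ht0)
  have o2 : orderOf (k ^ (r ^ a)) = t := by
    rw [orderOf_pow_of_dvd hra0 (by rw [hat]; exact Dvd.intro _ rfl), hat]
    exact Nat.mul_div_cancel_left _ (Nat.pos_of_ne_zero hra0)
  have h1 : Subgroup.centralizer ({y} : Set G) ≤ Subgroup.centralizer ({k ^ t} : Set G) :=
    H98TwoKey.key h hy (N.pow_mem hk t) (hky.symm.pow_right t)
      (by rw [o1]; exact Nat.Coprime.pow_right a hyr) hyc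
  have h2 : Subgroup.centralizer ({u} : Set G) ≤ Subgroup.centralizer ({k ^ (r ^ a)} : Set G) :=
    H98TwoKey.key h hu (N.pow_mem hk _) (hku.symm.pow_right _)
      (by rw [o2, hn]; exact (Nat.Coprime.pow_right n htr).symm) huc
  intro g hg
  have c1 : Commute g (k ^ t) := (mem_cen _ g).1 (h1 hg)
  have c2 : Commute g (k ^ (r ^ a)) := (mem_cen _ g).1 (h2 (hyu hg))
  rw [mem_cen]
  have hco : Nat.Coprime t (r ^ a) := Nat.Coprime.pow_right a htr
  have hb := Nat.gcd_eq_gcd_ab t (r ^ a)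
  rw [hco.gcd_eq_one] at hb
  have hk' : k = (k ^ t) ^ (Nat.gcdA t (r ^ a)) * (k ^ (r ^ a)) ^ (Nat.gcdB t (r ^ a)) := by
    rw [← zpow_natCast k t, ← zpow_natCast k (r ^ a), ← zpow_mul, ← zpow_mul, ← zpow_add, ← hb]
    simp
  rw [hk']
  exact (c1.zpow_right _).mul_right (c2.zpow_right _)

end Cfsg.Agent.Lib.H98TwoB2
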