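import Mathlib
import Cfsg.Agent.Lib.Helper72Class

namespace Cfsg.Agent.Lib.H98TwoU

theorem comm_aux {G : Type*} [Group G] [Finite G] (p : ℕ) [Fact p.Prime] (N : Subgroup G) [N.Normal]
    (P : Sylow p G) (P1 : Sylow p N) (hP1 : (P : Subgroup G).comap N.subtype = (P1 : Subgroup N))
    (hx : ∀ x ∈ N, ¬ p ∣ (Subgroup.centralizer ({x} : Set G)).index) :
    ∀ x ∈ N, ∀ z ∈ (P : Subgroup G), z ∈ N → Commute x z := by
  set P0 : Subgroup G := (P : Subgroup G) ⊓ N with hP0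
  have hmap : (P1 : Subgroup N).map N.subtype = P0 := by
    rw [← hP1]
    exact Subgroup.subgroupOf_map_subtype _ _
  have hfr := Sylow.normalizer_sup_eq_top P1
  rw [hmap] at hfr
  let D : Subgroup N := (Subgroup.centralizer (P0 : Set G)).subgroupOf N
  have hD : D = ⊤ := by
    apply Cfsg.Agent.Lib.Helper72Class.eq_top_of_conj_cover
    intro x
    have hfix := IsPGroup.nonempty_fixed_point_of_prime_not_dvd_card P.2
      (G ⧸ Subgroup.centralizer ({(x : G)} : Set G)) (hx x x.2)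
    obtain ⟨q, hq⟩ := hfix
    obtain ⟨g, rfl⟩ := QuotientGroup.mk_surjective q
    have hg : ∀ y ∈ (P : Subgroup G), g⁻¹ * y * g ∈ Subgroup.centralizer ({(x : G)} : Set G) := by
      intro y hy
      have h1 := hq ⟨y⁻¹, inv_mem hy⟩
      have h2 : ((y⁻¹ * g : G) : G ⧸ Subgroup.centralizer ({(x : G)} : Set G)) = g := h1
      rw [QuotientGroup.eq] at h2
      have e : (y⁻¹ * g)⁻¹ * g = g⁻¹ * y * g := by group
      rwa [e] at h2
    have hgt : g ∈ Subgroup.normalizer (P0 : Set G) ⊔ N := by rw [hfr]; trivial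
    obtain ⟨h, hh, n, hn, rfl⟩ := Subgroup.mem_sup_of_normal_right.mp hgt
    refine ⟨⟨n, hn⟩, ?_⟩
    show ((⟨n, hn⟩ * x * (⟨n, hn⟩ : N)⁻¹ : N) : G) ∈ Subgroup.centralizer (P0 : Set G)
    rw [Subgroup.mem_centralizer_iff]
    intro y hy
    have hy' : h * y * h⁻¹ ∈ P0 := (Subgroup.mem_normalizer_iff.mp hh y).mp hy
    have h3 := hg _ hy'.1
    have e : (h * n)⁻¹ * (h * y * h⁻¹) * (h * n) = n⁻¹ * y * n := by group
    rw [e, Subgroup.mem_centralizer_singleton_iff] at h3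
    show y * (n * (x : G) * n⁻¹) = n * (x : G) * n⁻¹ * y
    calc y * (n * (x : G) * n⁻¹) = n * ((n⁻¹ * y * n) * (x : G)) * n⁻¹ := by group
      _ = n * ((x : G) * (n⁻¹ * y * n)) * n⁻¹ := by rw [h3]
      _ = n * (x : G) * n⁻¹ * y := by group
  intro x hxN z hz hzN
  have h1 : (⟨x, hxN⟩ : N) ∈ D := by rw [hD]; trivial
  have h2 : x ∈ Subgroup.centralizer (P0 : Set G) := h1
  exact ((Subgroup.mem_centralizer_iff.mp h2) z ⟨hz, hzN⟩).symm

theorem comm {G : Type*} [Group G] [Finite G] (p : ℕ) [Fact p.Prime] (N : Subgroup G) [N.Normal]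
    (P : Sylow p G) (hx : ∀ x ∈ N, ¬ p ∣ (Subgroup.centralizer ({x} : Set G)).index) :
    ∀ x ∈ N, ∀ z ∈ (P : Subgroup G), z ∈ N → Commute x z := by
  obtain ⟨P1⟩ : Nonempty (Sylow p N) := inferInstance
  obtain ⟨Q, hQ⟩ := P1.exists_comap_subtype_eq
  obtain ⟨a, ha⟩ := MulAction.exists_smul_eq G Q P
  have key := comm_aux p N Q P1 hQ hx
  intro x hxN z hz hzN
  have hz' : a⁻¹ * z * a ∈ (Q : Subgroup G) := by
    have h1 : z ∈ ((a • Q : Sylow p G) : Subgroup G) := by rw [ha]; exact hz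
    rw [Sylow.coe_subgroup_smul, Subgroup.mem_pointwise_smul_iff_inv_smul_mem] at h1
    simpa [MulAut.smul_def, ← map_inv] using h1
  have hN : ∀ w ∈ N, a⁻¹ * w * a ∈ N := by
    intro w hw
    have := (inferInstance : N.Normal).conj_mem w hw a⁻¹
    rwa [inv_inv] at this
  have h2 := key _ (hN x hxN) _ hz' (hN z hzN)
  have h3 : a⁻¹ * x * a * (a⁻¹ * z * a) = a⁻¹ * z * a * (a⁻¹ * x * a) := h2
  have h4 : x * z = a * (a⁻¹ * x * a * (a⁻¹ * z * a)) * a⁻¹ := by group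
  have h5 : z * x = a * (a⁻¹ * z * a * (a⁻¹ * x * a)) * a⁻¹ := by group
  show x * z = z * x
  rw [h4, h5, h3]

end Cfsg.Agent.Lib.H98TwoU
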