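import Mathlib
import Cfsg.Agent.Lib.Helper98TwoDefs
import Cfsg.Agent.Lib.H98TwoKey
import Cfsg.Agent.Lib.H98TwoU

namespace Cfsg.Agent.Lib.H98TwoCaseA
open Cfsg.Agent.Lib.Helper98TwoDefs

/-- est 45m.  Case `r ∤ m`.  All indices `|G : C(x)|`, `x ∈ N`, are `1` or `m`, so prime to `r`;
by `H98TwoU.comm` (with `P = R`) every `x ∈ N` commutes with every element of `R`.
Pick `x0 ∈ R`, `x0 ∉ Z(G)`; so `N ≤ C(x0)`.
Claim: `N` is commutative.  Let `a ∈ N`; write `a = a1 * a2`, powers of `a`, with `a1` of `r`-power order and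
`a2` of order prime to `r` (e.g. `Nat.Coprime` Bezout on `orderOf a = r^k * t`).  `a1` lies in a conjugate of `R`
(`IsPGroup.exists_le_sylow` + Sylow conjugacy), and conjugates of `R` are centralized by `N` too (N normal), so
`a1` commutes with `N`.  `a2 ∈ N` commutes with `x0` and has order prime to `orderOf x0` (an `r`-power), so by
`H98TwoKey.key` `C(x0) ≤ C(a2)`, so `N ≤ C(a2)`.  Hence `a` commutes with `N`.
A commutative group is nilpotent (`CommGroup.isNilpotent` / `Group.isNilpotent_of_...`; build the `CommGroup ↥N`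
instance or use `IsMulCommutative`). -/
theorem nilpotent {G : Type*} [Group G] [Finite G] (r : ℕ) [Fact r.Prime]
    (R : Sylow r G) (hR : ¬ (R : Subgroup G) ≤ Subgroup.center G) (N : Subgroup G) [N.Normal]
    (hRN : (R : Subgroup G) ≤ N) (m : ℕ) (h : Two N m) (hrm : ¬ r ∣ m) : Group.IsNilpotent N := by
  have hr : r.Prime := Fact.out
  have h1 : ∀ x ∈ N, ¬ r ∣ (Subgroup.centralizer ({x} : Set G)).index := by
    intro x hx
    rcases h x hx with h' | h'
    · rw [h']; exact hr.one_lt.ne' ∘ Nat.dvd_one.1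
    · rw [h']; exact hrm
  have hU : ∀ P : Sylow r G, ∀ x ∈ N, ∀ z ∈ (P : Subgroup G), z ∈ N → Commute x z :=
    fun P => H98TwoU.comm r N P h1
  obtain ⟨x0, hx0R, hx0c⟩ := SetLike.not_le_iff_exists.1 hR
  have hx0N : x0 ∈ N := hRN hx0R
  obtain ⟨j, hj⟩ := R.isPGroup' ⟨x0, hx0R⟩
  have hj' : x0 ^ r ^ j = 1 := by
    have := congrArg Subtype.val hj
    simpa using this
  have hcomm : ∀ a ∈ N, ∀ b ∈ N, Commute b a := by
    intro a ha b hb
    have ho : orderOf a ≠ 0 := (orderOf_pos a).ne'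
    obtain ⟨k, t, hrt, hkt⟩ := Nat.exists_eq_pow_mul_and_not_dvd ho r hr.ne_one
    have hc1 : Commute b (a ^ t) := by
      have h1pow : (a ^ t) ^ r ^ k = 1 := by
        rw [← pow_mul, mul_comm, ← hkt, pow_orderOf_eq_one]
      have hP : IsPGroup r (Subgroup.zpowers (a ^ t)) := by
        rintro ⟨g, hg⟩
        obtain ⟨i, rfl⟩ := Subgroup.mem_zpowers_iff.1 hg
        refine ⟨k, ?_⟩
        apply Subtype.ext
        simp only [Subgroup.coe_pow, Subgroup.coe_one]
        rw [← zpow_natCast, ← zpow_mul, mul_comm, zpow_mul, zpow_natCast, h1pow, one_zpow]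
      obtain ⟨P, hP'⟩ := hP.exists_le_sylow
      exact hU P b hb (a ^ t) (hP' (Subgroup.mem_zpowers _)) (pow_mem ha t)
    have hc2 : Commute b (a ^ r ^ k) := by
      have ha2 : a ^ r ^ k ∈ N := pow_mem ha _
      have h2pow : (a ^ r ^ k) ^ t = 1 := by
        rw [← pow_mul, ← hkt, pow_orderOf_eq_one]
      have hco : (orderOf x0).Coprime (orderOf (a ^ r ^ k)) := by
        have hc : (r ^ j).Coprime t := Nat.Coprime.pow_left j ((Nat.Prime.coprime_iff_not_dvd hr).2 hrt)
        exact (hc.coprime_dvd_left (orderOf_dvd_of_pow_eq_one hj')).coprime_dvd_right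
          (orderOf_dvd_of_pow_eq_one h2pow)
      have hk := H98TwoKey.key h hx0N ha2 (hU R _ ha2 x0 hx0R hx0N).symm hco hx0c
      have hb0 : b ∈ Subgroup.centralizer ({x0} : Set G) := by
        rw [Subgroup.mem_centralizer_singleton_iff]
        exact hU R b hb x0 hx0R hx0N
      have := hk hb0
      rw [Subgroup.mem_centralizer_singleton_iff] at this
      exact this
    have hcop : IsCoprime (t : ℤ) ((r ^ k : ℕ) : ℤ) := by
      rw [Nat.isCoprime_iff_coprime]
      exact (Nat.Coprime.pow_left k ((Nat.Prime.coprime_iff_not_dvd hr).2 hrt)).symm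
    obtain ⟨u, v, huv⟩ := hcop
    have ha' : a = (a ^ t) ^ u * (a ^ r ^ k) ^ v := by
      rw [← zpow_natCast a t, ← zpow_natCast a (r ^ k), ← zpow_mul, ← zpow_mul, ← zpow_add,
        mul_comm (t : ℤ) u, mul_comm ((r ^ k : ℕ) : ℤ) v, huv, zpow_one]
    rw [ha']
    exact (hc1.zpow_right u).mul_right (hc2.zpow_right v)
  letI : CommGroup N :=
    { (inferInstance : Group N) with
      mul_comm := fun a b => Subtype.ext (hcomm b.1 b.2 a.1 a.2) }
  exact CommGroup.isNilpotent

end Cfsg.Agent.Lib.H98TwoCaseA
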