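import Mathlib
import Cfsg.Agent.Lib.Helper98TwoDefs

namespace Cfsg.Agent.Lib.H98TwoDa
open Cfsg.Agent.Lib.Helper98TwoDefs

theorem mem_of_pow_mem {K : Type*} [Group K] (Z : Subgroup K) (k : K) (c m : ℕ)
    (hcop : Nat.Coprime c m) (h1 : k ^ c ∈ Z) (h2 : k ^ m = 1) : k ∈ Z := by
  have hb' := Nat.gcd_eq_gcd_ab c m
  rw [hcop] at hb'
  have e : k ^ (((1 : ℕ) : ℤ)) = k ^ ((c : ℤ) * Nat.gcdA c m + (m : ℤ) * Nat.gcdB c m) := by
    rw [← hb']
  rw [Nat.cast_one, zpow_one, zpow_add, zpow_mul, zpow_mul, zpow_natCast, zpow_natCast, h2,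
    one_zpow, mul_one] at e
  rw [e]
  exact Z.zpow_mem h1 _

theorem dvd_card_normal {X K : Type*} [Group X] [Finite X] [CommGroup K] [Finite K]
    {φ : X →* MulAut K} {Z : Subgroup K} (h : Fx φ Z) (l : ℕ) [Fact l.Prime]
    (w : K) (hw : w ∉ Z) (hwl : ∃ n : ℕ, w ^ l ^ n = 1) (hX : l ∣ Nat.card X)
    (L : Subgroup X) [L.Normal] (hL : L ≠ ⊥) : l ∣ Nat.card L := by
  classical
  by_contra hl
  have hlp : l.Prime := Fact.out
  have : Fintype L := Fintype.ofFinite L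
  set c := Nat.card L with hc
  have hcop : ∀ n, Nat.Coprime c (l ^ n) := fun n =>
    Nat.Coprime.pow_right n ((Nat.Prime.coprime_iff_not_dvd hlp).mpr hl).symm
  let π : K → K := fun k => ∏ x : L, φ (x : X) k
  have hπmul : ∀ a b, π (a * b) = π a * π b := by
    intro a b
    simp only [π, map_mul, Finset.prod_mul_distrib]
  have hπone : π 1 = 1 := by simp [π]
  have hπpow : ∀ a (n : ℕ), π (a ^ n) = (π a) ^ n := by
    intro a n
    simp only [π, map_pow, Finset.prod_pow]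
  have hπinv : ∀ a, π a⁻¹ = (π a)⁻¹ := by
    intro a
    simp only [π, map_inv, Finset.prod_inv_distrib]
  have h3 : ∀ (g : X) k, φ g (π k) = π (φ g k) := by
    intro g k
    simp only [π, map_prod]
    let E : L ≃ L := (MulAut.conjNormal g : MulAut L).toEquiv
    rw [← Equiv.prod_comp E (fun x : L => φ (x : X) (φ g k))]
    apply Finset.prod_congr rfl
    intro x _
    have hE : ((E x : L) : X) = g * x * g⁻¹ := MulAut.conjNormal_apply g x
    rw [hE, ← MulAut.mul_apply, ← MulAut.mul_apply, ← map_mul, ← map_mul]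
    congr 2
    group
  have h1 : ∀ k, π k ∈ Z := by
    intro k
    obtain ⟨y, hy1⟩ := (Subgroup.ne_bot_iff_exists_ne_one (H := L)).mp hL
    have hy1' : (y : X) ≠ 1 := fun h' => hy1 (Subtype.ext h')
    rw [← h (y : X) hy1']
    simp only [π, map_prod]
    rw [← Equiv.prod_comp (Equiv.mulLeft y) (fun x : L => φ (x : X) k)]
    apply Finset.prod_congr rfl
    intro x _
    simp [map_mul]
  have hfixZ : ∀ (g : X), ∀ z ∈ Z, φ g z = z := by
    intro g z hz
    by_cases hg : g = 1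
    · simp [hg]
    · exact (h g hg z).mpr hz
  have h2 : ∀ z ∈ Z, π z = z ^ c := by
    intro z hz
    simp only [π, hfixZ _ z hz, Finset.prod_const, Finset.card_univ]
    rw [hc, Nat.card_eq_fintype_card]
  let W0 : Subgroup K :=
    { carrier := {k | (∃ n : ℕ, k ^ l ^ n = 1) ∧ π k = 1}
      one_mem' := ⟨⟨0, by simp⟩, hπone⟩
      mul_mem' := by
        rintro a b ⟨⟨n, hn⟩, ha⟩ ⟨⟨m, hm⟩, hb⟩
        refine ⟨⟨n + m, ?_⟩, by rw [hπmul, ha, hb, one_mul]⟩
        rw [mul_pow, pow_add, pow_mul, hn, one_pow, one_mul, mul_comm (l ^ n), pow_mul, hm, one_pow]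
      inv_mem' := by
        rintro a ⟨⟨n, hn⟩, ha⟩
        exact ⟨⟨n, by rw [inv_pow, hn, inv_one]⟩, by rw [hπinv, ha, inv_one]⟩ }
  have hinv : ∀ (g : X), ∀ k ∈ W0, φ g k ∈ W0 := by
    rintro g k ⟨⟨n, hn⟩, hk⟩
    exact ⟨⟨n, by rw [← map_pow, hn, map_one]⟩, by rw [← h3, hk, map_one]⟩
  have h4 : ∀ k ∈ W0, k ∈ Z → k = 1 := by
    rintro k ⟨⟨n, hn⟩, hk⟩ hkZ
    have h5 : k ^ c ∈ (⊥ : Subgroup K) := by
      rw [Subgroup.mem_bot, ← h2 k hkZ, hk]
    exact Subgroup.mem_bot.mp (mem_of_pow_mem ⊥ k c (l ^ n) (hcop n) h5 hn)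
  obtain ⟨n, hn⟩ := hwl
  have hw' : w ^ c * (π w)⁻¹ ∈ W0 := by
    refine ⟨⟨n, ?_⟩, ?_⟩
    · rw [mul_pow, ← pow_mul, mul_comm c, pow_mul, hn, one_pow, one_mul, inv_pow, ← hπpow, hn,
        hπone, inv_one]
    · rw [hπmul, hπpow, hπinv, h2 _ (h1 w), mul_inv_cancel]
  have hw'1 : w ^ c * (π w)⁻¹ ≠ 1 := by
    intro h5
    apply hw
    have h6 : w ^ c = π w := mul_inv_eq_one.mp h5
    exact mem_of_pow_mem Z w c (l ^ n) (hcop n) (by rw [h6]; exact h1 w) hn
  obtain ⟨g, hg⟩ := exists_prime_orderOf_dvd_card' l hX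
  have hg1 : g ≠ 1 := by
    intro h5
    rw [h5, orderOf_one] at hg
    exact hlp.one_lt.ne hg
  letI act : MulAction (Subgroup.zpowers g) W0 :=
    { smul := fun a k => ⟨φ (a : X) (k : K), hinv a k k.2⟩
      one_smul := fun k => Subtype.ext (by
        show φ ((1 : Subgroup.zpowers g) : X) (k : K) = k
        simp)
      mul_smul := fun a b k => Subtype.ext (by
        show φ ((a * b : Subgroup.zpowers g) : X) (k : K) = φ (a : X) (φ (b : X) (k : K))
        simp [map_mul]) }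
  have hpg : IsPGroup l (Subgroup.zpowers g) :=
    IsPGroup.of_card (n := 1) (by rw [Nat.card_zpowers, hg, pow_one])
  have hW0p : IsPGroup l W0 := by
    rintro ⟨k, ⟨m, hm⟩, hk⟩
    exact ⟨m, Subtype.ext hm⟩
  have hdvd : l ∣ Nat.card W0 := by
    obtain ⟨m, hm⟩ := (IsPGroup.iff_card (p := l) (G := W0)).1 hW0p
    rw [hm]
    have hm0 : m ≠ 0 := by
      intro h0
      rw [h0, pow_zero] at hm
      have hsub : Subsingleton W0 := (Nat.card_eq_one_iff_unique.mp hm).1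
      have := hsub.elim ⟨_, hw'⟩ 1
      exact hw'1 (congrArg Subtype.val this)
    exact dvd_pow_self l hm0
  have hfix1 : (1 : W0) ∈ MulAction.fixedPoints (Subgroup.zpowers g) W0 := by
    intro a
    apply Subtype.ext
    show φ (a : X) ((1 : W0) : K) = ((1 : W0) : K)
    simp
  obtain ⟨b, hb, hb1⟩ := hpg.exists_fixed_point_of_prime_dvd_card_of_fixed_point W0 hdvd hfix1
  apply hb1
  have h7 := hb ⟨g, Subgroup.mem_zpowers g⟩
  have h8 : φ g (b : K) = b := congrArg Subtype.val h7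
  have h9 : (b : K) ∈ Z := (h g hg1 b).mp h8
  exact (Subtype.ext (h4 b b.2 h9)).symm

end Cfsg.Agent.Lib.H98TwoDa
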