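import Mathlib
import Cfsg.Agent.Lib.Helper98TwoDefs

namespace Cfsg.Agent.Lib.H98TwoDb
open Cfsg.Agent.Lib.Helper98TwoDefs

/-- est 50m, PURE MATHLIB.  For `g : X` with `g ^ l = 1` put `Nm g k := ∏ i ∈ Finset.range l, φ (g ^ i) k`.
(1) `φ g (Nm g k) = Nm g k` (shift the index, `g^l = 1`), hence `Nm g k ∈ Z` if `g ≠ 1` (by `h`).
Suppose `e ∉ zpowers z`.  Then `z ^ j * e ≠ 1` for all `j`, and `(z^j * e)^l = 1`; and `z ^ i ≠ 1` for `0 < i < l`.
(2) `∏ j ∈ range l, Nm (z^j * e) w = ∏ j, ∏ i, φ ((z^j*e)^i) w = ∏ i, ∏ j, φ ((z^i)^j) (φ (e^i) w) = ∏ i ∈ range l, Nm (z^i) (φ (e^i) w)`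
(`Finset.prod_comm`, `(z^j*e)^i = (z^i)^j * e^i` by commutativity).  The left side is in `Z`; on the right the term `i = 0` is `w ^ l` and all
other terms are in `Z`.  So `w ^ l ∈ Z`, and as `orderOf w` is prime to `l`, `w` is a power of `w ^ l`: `w ∈ Z`.  Contradiction. -/
theorem mem_zpowers {X K : Type*} [Group X] [Finite X] [CommGroup K] [Finite K]
    {φ : X →* MulAut K} {Z : Subgroup K} (h : Fx φ Z) (l : ℕ) [Fact l.Prime]
    (w : K) (hw : w ∉ Z) (hwl : (orderOf w).Coprime l)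
    (z e : X) (hz : orderOf z = l) (he : orderOf e = l) (hc : Commute z e) :
    e ∈ Subgroup.zpowers z := by
  classical
  by_contra hne
  have hl : l.Prime := Fact.out
  have hzl : z ^ l = 1 := by rw [← hz]; exact pow_orderOf_eq_one z
  have hel : e ^ l = 1 := by rw [← he]; exact pow_orderOf_eq_one e
  let Nm : X → K → K := fun g k => ∏ i ∈ Finset.range l, φ (g ^ i) k
  have hfix : ∀ g : X, g ^ l = 1 → ∀ k, φ g (Nm g k) = Nm g k := by
    intro g hg k
    have h1 : φ g (Nm g k) = ∏ i ∈ Finset.range l, φ (g ^ (i + 1)) k := by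
      show φ g (∏ i ∈ Finset.range l, φ (g ^ i) k) = _
      rw [map_prod]
      apply Finset.prod_congr rfl
      intro i _
      rw [pow_succ', map_mul]
      rfl
    rw [h1]
    have h2 := Finset.prod_range_succ' (fun i => φ (g ^ i) k) l
    have h3 := Finset.prod_range_succ (fun i => φ (g ^ i) k) l
    rw [h3] at h2
    simp only [hg, pow_zero] at h2
    exact (mul_right_cancel h2).symm
  have hNmZ : ∀ g : X, g ≠ 1 → g ^ l = 1 → ∀ k, Nm g k ∈ Z :=
    fun g hg1 hg k => (h g hg1 _).1 (hfix g hg k)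
  have hA : ∀ j : ℕ, z ^ j * e ≠ 1 := by
    intro j hj
    apply hne
    have h1 : e = (z ^ j)⁻¹ := eq_inv_of_mul_eq_one_right hj
    rw [h1]
    exact inv_mem (Subgroup.npow_mem_zpowers z j)
  have hA' : ∀ j : ℕ, (z ^ j * e) ^ l = 1 := by
    intro j
    rw [(hc.pow_left j).mul_pow, ← pow_mul, mul_comm j l, pow_mul, hzl, one_pow, hel, one_mul]
  have hL : ∏ j ∈ Finset.range l, Nm (z ^ j * e) w ∈ Z :=
    Subgroup.prod_mem Z (fun j _ => hNmZ _ (hA j) (hA' j) w)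
  have hswap : ∏ j ∈ Finset.range l, Nm (z ^ j * e) w
      = ∏ i ∈ Finset.range l, Nm (z ^ i) (φ (e ^ i) w) := by
    show ∏ j ∈ Finset.range l, ∏ i ∈ Finset.range l, φ ((z ^ j * e) ^ i) w
      = ∏ i ∈ Finset.range l, ∏ j ∈ Finset.range l, φ ((z ^ i) ^ j) (φ (e ^ i) w)
    rw [Finset.prod_comm]
    apply Finset.prod_congr rfl
    intro i _
    apply Finset.prod_congr rfl
    intro j _
    rw [(hc.pow_left j).mul_pow, ← pow_mul, mul_comm j i, pow_mul, map_mul]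
    rfl
  have h0 : 0 ∈ Finset.range l := Finset.mem_range.2 hl.pos
  rw [hswap, ← Finset.mul_prod_erase _ _ h0] at hL
  have hF0 : Nm (z ^ 0) (φ (e ^ 0) w) = w ^ l := by
    show ∏ i ∈ Finset.range l, φ ((z ^ 0) ^ i) (φ (e ^ 0) w) = _
    simp
  have hrest : ∏ i ∈ (Finset.range l).erase 0, Nm (z ^ i) (φ (e ^ i) w) ∈ Z := by
    apply Subgroup.prod_mem
    intro i hi
    rw [Finset.mem_erase, Finset.mem_range] at hi
    apply hNmZ
    · exact pow_ne_one_of_lt_orderOf hi.1 (by rw [hz]; exact hi.2)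
    · rw [← pow_mul, mul_comm, pow_mul, hzl, one_pow]
  have hwl' : w ^ l ∈ Z := by
    rw [hF0] at hL
    exact (Subgroup.mul_mem_cancel_right Z hrest).1 hL
  obtain ⟨u, hu⟩ := exists_pow_eq_self_of_coprime hwl.symm
  exact hw (hu ▸ pow_mem hwl' u)

end Cfsg.Agent.Lib.H98TwoDb
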