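import Mathlib
import Cfsg.Agent.Lib.Helper98TwoDefs

namespace Cfsg.Agent.Lib.H98TwoDc
open Cfsg.Agent.Lib.Helper98TwoDefs

/-- est 60m, PURE MATHLIB.  Suppose `|X|` even: Cauchy gives `i : X` of order 2.
(0) every `φ g` fixes `Z` pointwise.  `φ` is injective-ish: `φ g = 1`, `g ≠ 1` would give `a ∈ Z`.
(1) for every involution `j` and `k : K`: `k * φ j k` is fixed by `φ j`, so it is in `Z`.
(2) Let `g : X`, `i' := g * i * g⁻¹`, `c := i * i'`.  By (1) for `i` and `i'` and (0): `φ c k * k⁻¹ ∈ Z` for all `k`.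
(3) CLAIM: if `c : X` satisfies `∀ k, φ c k * k⁻¹ ∈ Z` then `c = 1`.  Otherwise some power `d` of `c` has prime order `p`
(`d = c^(orderOf c / p)`), and `d` has the same property (`φ (c^n) k = k * t^n` where `t = φ c k * k⁻¹ ∈ Z` is fixed).  `p ≠ r` or `p ≠ q`; say `p ≠ r` and take `k = a`
(otherwise `k = b`): `φ d k = k * t`, `t ∈ Z`, so `k = φ (d^p) k = k * t^p`, `t^p = 1`; also `t = φ d k * k⁻¹` satisfies `t^(r^n) = 1`; coprime, so `t = 1`, `φ d a = a`, `a ∈ Z` by `h`: contradiction.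
(4) So `i * (g i g⁻¹) = 1`, i.e. `g i g⁻¹ = i` for all `g`: `zpowers i` is a normal subgroup of order 2, `≠ ⊥`; `hN` gives `r ∣ 2` and `q ∣ 2`, so `r = q = 2`: contradiction. -/
theorem odd_card {X K : Type*} [Group X] [Finite X] [CommGroup K] [Finite K]
    {φ : X →* MulAut K} {Z : Subgroup K} (h : Fx φ Z) (r q : ℕ) [Fact r.Prime] [Fact q.Prime]
    (hrq : r ≠ q) (a b : K) (ha : a ∉ Z) (hb : b ∉ Z) (har : ∃ n : ℕ, a ^ r ^ n = 1)
    (hbq : ∃ n : ℕ, b ^ q ^ n = 1)
    (hN : ∀ L : Subgroup X, L.Normal → L ≠ ⊥ → r ∣ Nat.card L ∧ q ∣ Nat.card L) :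
    Odd (Nat.card X) := by
  have hr : r.Prime := Fact.out
  have hqp : q.Prime := Fact.out
  by_contra hodd
  rw [Nat.not_odd_iff_even] at hodd
  obtain ⟨i, hi⟩ := exists_prime_orderOf_dvd_card' (G := X) 2 hodd.two_dvd
  have hi1 : i ≠ 1 := by
    intro e
    rw [e, orderOf_one] at hi
    omega
  have hii : i * i = 1 := by rw [← sq, ← hi, pow_orderOf_eq_one]
  have h0 : ∀ (g : X) (z : K), z ∈ Z → φ g z = z := by
    intro g z hz
    by_cases hg : g = 1
    · rw [hg, map_one]; rfl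
    · exact (h g hg z).2 hz
  have h1 : ∀ j : X, j ≠ 1 → j * j = 1 → ∀ k : K, k * φ j k ∈ Z := by
    intro j hj hjj k
    apply (h j hj _).1
    rw [map_mul, ← MulAut.mul_apply, ← map_mul, hjj, map_one, MulAut.one_apply, mul_comm]
  have hprime : ∀ (d : X) (p : ℕ), p.Prime → orderOf d = p → (∀ k, φ d k * k⁻¹ ∈ Z) → False := by
    intro d p hp hd hdk
    have hd1 : d ≠ 1 := by
      intro e
      rw [e, orderOf_one] at hd
      exact hp.one_lt.ne hd
    have hfix : ∀ (l : ℕ), l.Prime → l ≠ p → ∀ k : K, (∃ n : ℕ, k ^ l ^ n = 1) → φ d k = k := by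
      rintro l hl hlp k ⟨n, hn⟩
      obtain ⟨t, ht⟩ : ∃ t, t = φ d k * k⁻¹ := ⟨_, rfl⟩
      have htZ : t ∈ Z := ht ▸ hdk k
      have hdk' : φ d k = k * t := by
        rw [ht, mul_comm k, inv_mul_cancel_right]
      have hpow : ∀ m : ℕ, φ (d ^ m) k = k * t ^ m := by
        intro m
        induction m with
        | zero => simp
        | succ m ih =>
          rw [pow_succ', map_mul, MulAut.mul_apply, ih, map_mul, h0 d _ (Z.pow_mem htZ m), hdk',
            pow_succ', mul_assoc]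
      have e1 : t ^ p = 1 := by
        have := hpow p
        rw [← hd, pow_orderOf_eq_one, map_one, MulAut.one_apply] at this
        rw [← hd]
        exact mul_eq_left.1 this.symm
      have e2 : t ^ l ^ n = 1 := by
        rw [ht, mul_pow, inv_pow, hn, inv_one, mul_one, ← map_pow, hn, map_one]
      have e3 : orderOf t ∣ Nat.gcd p (l ^ n) :=
        Nat.dvd_gcd (orderOf_dvd_of_pow_eq_one e1) (orderOf_dvd_of_pow_eq_one e2)
      have e4 : Nat.gcd p (l ^ n) = 1 :=
        Nat.Coprime.pow_right n ((Nat.coprime_primes hp hl).2 hlp.symm)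
      rw [e4, Nat.dvd_one, orderOf_eq_one_iff] at e3
      rw [hdk', e3, mul_one]
    by_cases hpr : r = p
    · exact hb ((h d hd1 b).1 (hfix q hqp (fun e => hrq (hpr.trans e.symm)) b hbq))
    · exact ha ((h d hd1 a).1 (hfix r hr hpr a har))
  have hclaim : ∀ c : X, (∀ k, φ c k * k⁻¹ ∈ Z) → c = 1 := by
    intro c hc
    by_contra hc1
    have hpw : ∀ (m : ℕ) (k : K), φ (c ^ m) k * k⁻¹ ∈ Z := by
      intro m
      induction m with
      | zero =>
        intro k
        simp [Z.one_mem]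
      | succ m ih =>
        intro k
        have e : φ (c ^ (m + 1)) k * k⁻¹
            = (φ c (φ (c ^ m) k) * (φ (c ^ m) k)⁻¹) * (φ (c ^ m) k * k⁻¹) := by
          rw [pow_succ', map_mul, MulAut.mul_apply]
          group
        rw [e]
        exact Z.mul_mem (hc _) (ih k)
    have ho : orderOf c ≠ 1 := fun e => hc1 (orderOf_eq_one_iff.1 e)
    have hp := Nat.minFac_prime ho
    exact hprime (c ^ (orderOf c / (orderOf c).minFac)) _ hp
      (orderOf_pow_orderOf_div (orderOf_pos c).ne' (Nat.minFac_dvd _)) (hpw _)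
  have hcen : ∀ g : X, g * i * g⁻¹ = i := by
    intro g
    have hi' : g * i * g⁻¹ ≠ 1 := by
      intro e
      apply hi1
      have : i = g⁻¹ * (g * i * g⁻¹) * g := by group
      rw [this, e]
      group
    have hi'2 : (g * i * g⁻¹) * (g * i * g⁻¹) = 1 := by
      have : (g * i * g⁻¹) * (g * i * g⁻¹) = g * (i * i) * g⁻¹ := by group
      rw [this, hii]
      group
    have hc := hclaim (i * (g * i * g⁻¹)) (fun k => by
      have z1 := h1 i hi1 hii k
      have z2 := h1 _ hi' hi'2 k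
      have e : φ (i * (g * i * g⁻¹)) k * k⁻¹ = (k * φ (g * i * g⁻¹) k) * (k * φ i k)⁻¹ := by
        have e1 : φ (g * i * g⁻¹) k = (k * φ (g * i * g⁻¹) k) * k⁻¹ := by
          rw [mul_comm k, mul_inv_cancel_right]
        rw [map_mul, MulAut.mul_apply]
        conv_lhs => rw [e1, map_mul, h0 i _ z2, map_inv]
        rw [mul_inv, mul_assoc]
        congr 1
        rw [mul_comm]
      rw [e]
      exact Z.mul_mem z2 (Z.inv_mem z1))
    have h2 : g * i * g⁻¹ = i⁻¹ := eq_inv_of_mul_eq_one_right hc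
    rw [h2]
    exact inv_eq_of_mul_eq_one_left hii
  have hLn : (Subgroup.zpowers i).Normal := by
    constructor
    intro n hn g
    obtain ⟨m, rfl⟩ := Subgroup.mem_zpowers_iff.1 hn
    have : g * i ^ m * g⁻¹ = (g * i * g⁻¹) ^ m := (conj_zpow).symm
    rw [this, hcen]
    exact Subgroup.zpow_mem_zpowers i m
  have hL := hN _ hLn (Subgroup.zpowers_ne_bot.2 hi1)
  rw [Nat.card_zpowers, hi] at hL
  have e1 := (Nat.prime_dvd_prime_iff_eq hr Nat.prime_two).1 hL.1
  have e2 := (Nat.prime_dvd_prime_iff_eq hqp Nat.prime_two).1 hL.2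
  exact hrq (e1.trans e2.symm)

end Cfsg.Agent.Lib.H98TwoDc
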