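import Mathlib

namespace Cfsg.Agent.Lib.H98TwoDd

/-- est 50m, PURE MATHLIB.  Take `L` minimal among the normal subgroups `≠ ⊥` of `X` (finite; `⊤` is one).  `⁅L, L⁆` is normal in `X`
(`Subgroup.commutator_normal`) and `< L` (`L` solvable, `≠ ⊥`: `Group.IsSolvable.commutator_lt_of_ne_bot` for `↥L`, or `IsSolvable.commutator_lt_of_ne_bot`), so `⁅L,L⁆ = ⊥`: `L` is commutative.
`L1 := {x ∈ L | x ^ r = 1}` is a subgroup (commutativity), normal in `X`, `≠ ⊥` (`r ∣ |L|` by `hN`, Cauchy), `≤ L`; by minimality `L1 = L`.  So `L` has exponent `r`,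
it is an `r`-group, `|L|` is a power of `r`, and `q ∣ |L|` (`hN`) gives `q = r`: contradiction. -/
theorem false_of_solvable (X : Type*) [Group X] [Finite X] [Group.IsSolvable X] [Nontrivial X]
    (r q : ℕ) [Fact r.Prime] [Fact q.Prime] (hrq : r ≠ q)
    (hN : ∀ L : Subgroup X, L.Normal → L ≠ ⊥ → r ∣ Nat.card L ∧ q ∣ Nat.card L) : False := by
  have hr : r.Prime := Fact.out
  have hq : q.Prime := Fact.out
  obtain ⟨L, ⟨hLn, hL1⟩, hmin⟩ := (Set.toFinite {K : Subgroup X | K.Normal ∧ K ≠ ⊥}).exists_minimal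
    ⟨⊤, inferInstance, top_ne_bot⟩
  have hcn : (⁅L, L⁆ : Subgroup X).Normal := Subgroup.commutator_normal L L
  have hlt : ⁅L, L⁆ < L := Group.IsSolvable.commutator_lt_of_ne_bot hL1
  have hbot : ⁅L, L⁆ = ⊥ := by
    by_contra hne
    exact absurd (hmin ⟨hcn, hne⟩ hlt.le) (not_le_of_gt hlt)
  have hcomm : ∀ a ∈ L, ∀ b ∈ L, Commute a b := by
    intro a ha b hb
    have h1 := Subgroup.commutator_eq_bot_iff_le_centralizer.1 hbot ha
    rw [Subgroup.mem_centralizer_iff] at h1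
    exact (h1 b hb).symm
  let L1 : Subgroup X :=
    { carrier := {x | x ∈ L ∧ x ^ r = 1}
      one_mem' := ⟨L.one_mem, one_pow r⟩
      mul_mem' := by
        rintro x y ⟨hx, hx1⟩ ⟨hy, hy1⟩
        exact ⟨L.mul_mem hx hy, by rw [(hcomm x hx y hy).mul_pow, hx1, hy1, one_mul]⟩
      inv_mem' := by
        rintro x ⟨hx, hx1⟩
        exact ⟨L.inv_mem hx, by rw [inv_pow, hx1, inv_one]⟩ }
  have hL1n : L1.Normal := by
    constructor
    rintro x ⟨hx, hx1⟩ g
    exact ⟨hLn.conj_mem x hx g, by rw [conj_pow, hx1, mul_one, mul_inv_cancel]⟩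
  have hL1ne : L1 ≠ ⊥ := by
    obtain ⟨x, hx⟩ := exists_prime_orderOf_dvd_card' (G := L) r (hN L hLn hL1).1
    intro hb
    have hx1 : (x : X) ∈ L1 := ⟨x.2, by
      have := pow_orderOf_eq_one x
      rw [hx] at this
      have h2 := congrArg (fun y : L => (y : X)) this
      simpa using h2⟩
    rw [hb, Subgroup.mem_bot] at hx1
    have : x = 1 := Subtype.ext hx1
    rw [this, orderOf_one] at hx
    exact hr.one_lt.ne hx
  have hle : L ≤ L1 := hmin ⟨hL1n, hL1ne⟩ (fun x hx => hx.1)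
  obtain ⟨y, hy⟩ := exists_prime_orderOf_dvd_card' (G := L) q (hN L hLn hL1).2
  have hy1 : (y : X) ^ r = 1 := (hle y.2).2
  have hy2 : y ^ r = 1 := Subtype.ext (by simpa using hy1)
  have hd : q ∣ r := by rw [← hy]; exact orderOf_dvd_of_pow_eq_one hy2
  exact hrq ((Nat.prime_dvd_prime_iff_eq hq hr).1 hd).symm

end Cfsg.Agent.Lib.H98TwoDd
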