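import Mathlib
import Cfsg.Agent.S0016

namespace Cfsg.Agent.Lib.H98TwoDz

/-- est 45m.  Let `P` be a Sylow `l`-subgroup of `X`; `l` is odd or `P` is trivial (|X| odd).  If `P = ⊥` it is cyclic.
Otherwise the centre of the `l`-group `↥P` is nontrivial (`IsPGroup.center_nontrivial`): take `z` central of order `l`.  Any subgroup `H` of `↥P` of order `l` is
`zpowers e` with `orderOf e = l`, `e` commutes with `z`, so by `huniq` (applied to the images in `X`) `e ∈ zpowers z`, so `H = zpowers z` (same order).
So `↥P` has a unique subgroup of order `l`; landed `Cfsg.Agent.S0016.result` gives `IsCyclic ↥P` or `l = 2`; `l = 2` is impossible since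
`2 ∣ |P| ∣ |X|` odd. -/
theorem isZGroup (X : Type*) [Group X] [Finite X] (hodd : Odd (Nat.card X))
    (huniq : ∀ l : ℕ, l.Prime → ∀ z e : X, orderOf z = l → orderOf e = l → Commute z e →
      e ∈ Subgroup.zpowers z) : IsZGroup X := by
  refine ⟨fun l hl P => ?_⟩
  haveI : Fact l.Prime := ⟨hl⟩
  have hP : IsPGroup l (↥(P : Subgroup X)) := P.isPGroup'
  have key : ∀ H K : Subgroup (↥(P : Subgroup X)), Nat.card H = l → Nat.card K = l → H = K := by
    intro H K hH hK
    haveI : Nontrivial (↥(P : Subgroup X)) := by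
      by_contra hn
      rw [not_nontrivial_iff_subsingleton] at hn
      have : Nat.card H = 1 := Nat.card_eq_one_iff_unique.2 ⟨inferInstance, ⟨1⟩⟩
      rw [hH] at this
      exact hl.one_lt.ne' this
    haveI := hP.center_nontrivial
    have hc : IsPGroup l (Subgroup.center (↥(P : Subgroup X))) := hP.to_subgroup _
    obtain ⟨k, hk⟩ := hc.exists_card_eq
    have hk0 : k ≠ 0 := by
      rintro rfl
      rw [pow_zero] at hk
      have := Finite.one_lt_card (α := Subgroup.center (↥(P : Subgroup X)))
      omega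
    have hdvd : l ∣ Nat.card (Subgroup.center (↥(P : Subgroup X))) := by
      rw [hk]; exact dvd_pow_self l hk0
    obtain ⟨z, hz⟩ := exists_prime_orderOf_dvd_card' l hdvd
    have main : ∀ H : Subgroup (↥(P : Subgroup X)), Nat.card H = l →
        H = Subgroup.zpowers (z : ↥(P : Subgroup X)) := by
      intro H hH
      obtain ⟨e, he⟩ := exists_prime_orderOf_dvd_card' (G := H) l (by rw [hH])
      have hzX : orderOf (((z : ↥(P : Subgroup X)) : X)) = l := by
        rw [Subgroup.orderOf_coe, Subgroup.orderOf_coe, hz]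
      have heX : orderOf (((e : ↥(P : Subgroup X)) : X)) = l := by
        rw [Subgroup.orderOf_coe, Subgroup.orderOf_coe, he]
      have hcomm : Commute (((z : ↥(P : Subgroup X)) : X)) (((e : ↥(P : Subgroup X)) : X)) := by
        have := Subgroup.mem_center_iff.1 z.2 (e : ↥(P : Subgroup X))
        have h2 := congrArg (Subtype.val) this
        simp only [Subgroup.coe_mul] at h2
        exact h2.symm
      obtain ⟨j, hj⟩ := Subgroup.mem_zpowers_iff.1 (huniq l hl _ _ hzX heX hcomm)
      have hj' : (z : ↥(P : Subgroup X)) ^ j = (e : ↥(P : Subgroup X)) := by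
        apply Subtype.ext
        simpa using hj
      have h1 : Subgroup.zpowers (e : ↥(P : Subgroup X)) = H := by
        apply Subgroup.eq_of_le_of_card_ge
        · rw [Subgroup.zpowers_le]; exact e.2
        · rw [Nat.card_zpowers, Subgroup.orderOf_coe, he, hH]
      have h2 : Subgroup.zpowers (e : ↥(P : Subgroup X)) =
          Subgroup.zpowers (z : ↥(P : Subgroup X)) := by
        apply Subgroup.eq_of_le_of_card_ge
        · rw [Subgroup.zpowers_le]; exact Subgroup.mem_zpowers_iff.2 ⟨j, hj'⟩
        · rw [Nat.card_zpowers, Nat.card_zpowers, Subgroup.orderOf_coe, Subgroup.orderOf_coe, he, hz]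
      rw [← h1, h2]
    rw [main H hH, main K hK]
  rcases Cfsg.Agent.S0016.result l hP key with h | ⟨h2, n, ⟨e⟩⟩
  · exact h
  · exfalso
    haveI : NeZero (2 ^ n) := ⟨by positivity⟩
    have h4 : Nat.card (↥(P : Subgroup X)) = 4 * 2 ^ n := by
      rw [Nat.card_congr e.toEquiv, Nat.card_eq_fintype_card, QuaternionGroup.card]
    have hdvd : Nat.card (↥(P : Subgroup X)) ∣ Nat.card X := Subgroup.card_subgroup_dvd_card _
    rw [h4] at hdvd
    have h2' : 2 ∣ Nat.card X := Dvd.dvd.trans ⟨2 * 2 ^ n, by ring⟩ hdvd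
    rcases hodd with ⟨t, ht⟩
    omega

end Cfsg.Agent.Lib.H98TwoDz
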