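import Mathlib

namespace Cfsg.Agent.Lib.H98TwoE1

/-- est 60m, PURE MATHLIB.  `zpowers w` (inside `↥C`) is an `l`-group: take a Sylow `l`-subgroup `D0` of `↥C` containing it
(`IsPGroup.exists_le_sylow`), `D := D0.map C.subtype`.  `D` is an `l`-subgroup of `G`; take a Sylow `l`-subgroup `S` of `G` with `D ≤ S`.
`S ⊓ C` is an `l`-subgroup of `C` containing `D`, so `S ⊓ C = D` (maximality of Sylow subgroups, `Sylow.is_maximal'`).
`D ≠ S`: otherwise `S ≤ C` and `l ∤ |G : S|` gives `l ∤ |G : C|`.  So `D < S`, and by the normalizer condition in the `l`-group (nilpotent) `S`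
(`Group.IsNilpotent.normalizerCondition` / `normalizerCondition_of_isNilpotent`) there is `g ∈ S`, `g ∉ D`, normalizing `D`.  `g ∉ C` since `S ⊓ C = D`;
`g` has `l`-power order as `g ∈ S`. -/
theorem exists_normalizing {G : Type*} [Group G] [Finite G] (l : ℕ) [Fact l.Prime] (C : Subgroup G)
    (hl : l ∣ C.index) (w : G) (hwC : w ∈ C) (hw : ∃ n : ℕ, orderOf w = l ^ n) :
    ∃ (D : Subgroup G) (g : G), D ≤ C ∧ w ∈ D ∧ g ∉ C ∧ (∃ n : ℕ, orderOf g = l ^ n) ∧
      ∀ d ∈ D, g * d * g⁻¹ ∈ D := by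
  obtain ⟨n, hn⟩ := hw
  have hz : IsPGroup l (Subgroup.zpowers (⟨w, hwC⟩ : C)) := by
    apply IsPGroup.of_card (n := n)
    rw [Nat.card_zpowers, ← hn]
    exact Subgroup.orderOf_mk w hwC
  obtain ⟨D0, hD0⟩ := hz.exists_le_sylow
  have hDp : IsPGroup l ((D0 : Subgroup C).map C.subtype) := D0.2.map _
  obtain ⟨S, hS⟩ := hDp.exists_le_sylow
  have hmax : (S : Subgroup G).subgroupOf C = D0 := by
    apply D0.is_maximal' (S.2.comap_subtype)
    intro x hx
    exact hS (Subgroup.mem_map_of_mem _ hx)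
  have hSC : ∀ x ∈ (S : Subgroup G), x ∈ C → x ∈ (D0 : Subgroup C).map C.subtype := by
    intro x hxS hxC
    have : (⟨x, hxC⟩ : C) ∈ (S : Subgroup G).subgroupOf C := by
      rw [Subgroup.mem_subgroupOf]; exact hxS
    rw [hmax] at this
    exact ⟨_, this, rfl⟩
  have hDC : (D0 : Subgroup C).map C.subtype ≤ C := by
    rintro _ ⟨x, _, rfl⟩
    exact x.2
  have hne : ((D0 : Subgroup C).map C.subtype).subgroupOf (S : Subgroup G) < ⊤ := by
    rw [lt_top_iff_ne_top]
    intro htop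
    rw [Subgroup.subgroupOf_eq_top] at htop
    have hSleC : (S : Subgroup G) ≤ C := htop.trans hDC
    exact S.not_dvd_index (hl.trans (Subgroup.index_dvd_of_le hSleC))
  have : Group.IsNilpotent (S : Subgroup G) := S.2.isNilpotent
  have hnc := Group.normalizerCondition_of_isNilpotent (G := (S : Subgroup G)) _ hne
  obtain ⟨g, hgN, hgD⟩ := SetLike.exists_of_lt hnc
  refine ⟨(D0 : Subgroup C).map C.subtype, (g : G), hDC, ?_, ?_, ?_, ?_⟩
  · exact ⟨⟨w, hwC⟩, hD0 (Subgroup.mem_zpowers _), rfl⟩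
  · intro hgC
    apply hgD
    rw [Subgroup.mem_subgroupOf]
    exact hSC _ g.2 hgC
  · obtain ⟨k, hk⟩ := S.2 g
    have h1 : orderOf g ∣ l ^ k := orderOf_dvd_of_pow_eq_one hk
    obtain ⟨j, _, hj⟩ := (Nat.dvd_prime_pow (Fact.out : l.Prime)).1 h1
    exact ⟨j, by rw [Subgroup.orderOf_coe]; exact hj⟩
  · intro d hd
    have h1 : (⟨d, hS hd⟩ : (S : Subgroup G)) ∈
        ((D0 : Subgroup C).map C.subtype).subgroupOf (S : Subgroup G) := by
      rw [Subgroup.mem_subgroupOf]; exact hd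
    have h2 := (Subgroup.mem_normalizer_iff.1 hgN _).1 h1
    rw [Subgroup.mem_subgroupOf] at h2
    simpa using h2

end Cfsg.Agent.Lib.H98TwoE1
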