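import Mathlib

namespace Cfsg.Agent.Lib.H98TwoNil

/-- est 40m, PURE MATHLIB.  Let `Z0 := (center G).subgroupOf N ≤ center ↥N`.  Every element of `↥N ⧸ Z0` has
`r`-power order: for `x ∈ N` with `orderOf x = r^k * t`, `r ∤ t`, the element `x^(r^k)` has order `t` prime to `r`,
so is central in `G`.  So `↥N ⧸ Z0` is a finite `r`-group, hence nilpotent (`IsPGroup.isNilpotent`), and
`Group.isNilpotent_of_ker_le_center` (name may be `isNilpotent_of_ker_le_center`) applied to `QuotientGroup.mk' Z0`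
gives the claim. -/
theorem nilpotent {G : Type*} [Group G] [Finite G] (r : ℕ) [Fact r.Prime] (N : Subgroup G)
    (h : ∀ y ∈ N, (orderOf y).Coprime r → y ∈ Subgroup.center G) : Group.IsNilpotent N := by
  have hr : r.Prime := Fact.out
  let Z0 : Subgroup N := (Subgroup.center G).subgroupOf N
  have hZ0n : Z0.Normal := inferInstance
  have hZ0c : Z0 ≤ Subgroup.center N := by
    intro x hx
    rw [Subgroup.mem_center_iff]
    intro g
    apply Subtype.ext
    exact (Subgroup.mem_center_iff.1 (Subgroup.mem_subgroupOf.1 hx)) g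
  have hp : IsPGroup r (N ⧸ Z0) := by
    intro x
    obtain ⟨x, rfl⟩ := QuotientGroup.mk_surjective x
    obtain ⟨k, t, ht, hkt⟩ := Nat.exists_eq_pow_mul_and_not_dvd (n := orderOf (x : G))
      (orderOf_pos _).ne' r hr.ne_one
    refine ⟨k, ?_⟩
    rw [← QuotientGroup.mk_pow, QuotientGroup.eq_one_iff]
    show ((x ^ r ^ k : N) : G) ∈ Subgroup.center G
    apply h _ (x ^ r ^ k).2
    have h1 : orderOf ((x : G) ^ r ^ k) = t := by
      rw [orderOf_pow_of_dvd (pow_ne_zero _ hr.ne_zero) (by rw [hkt]; exact dvd_mul_right _ _), hkt,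
        Nat.mul_div_cancel_left _ (pow_pos hr.pos _)]
    rw [Subgroup.coe_pow, h1]
    exact ((Nat.Prime.coprime_iff_not_dvd hr).2 ht).symm
  have hnil : Group.IsNilpotent (N ⧸ Z0) := hp.isNilpotent
  exact Subgroup.isNilpotent_of_ker_le_center (QuotientGroup.mk' Z0)
    (by rw [QuotientGroup.ker_mk']; exact hZ0c)

end Cfsg.Agent.Lib.H98TwoNil
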