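import Mathlib

namespace Cfsg.Agent.Lib.H98TwoPP

/-- est 40m, PURE MATHLIB.  Choose `y ∈ N`, noncentral, of order prime to `r`, with `orderOf y` MINIMAL.
`orderOf y ≠ 1`.  If `orderOf y = a * b` with `a, b > 1` coprime, then `y = (y^a)^u * (y^b)^v` (Bezout) and `y^a`, `y^b ∈ N`
have smaller orders (`b`, `a`), prime to `r`, so are central by minimality, so `y` is central: contradiction.  Hence
`orderOf y` is a prime power `q^n` (e.g. take `q = minFac`, `orderOf y = q^k * t` with `q ∤ t`
(`Nat.exists_eq_pow_mul_and_not_dvd`), so `t = 1`), and `q ≠ r` since `q ∣ orderOf y`. -/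
theorem exists_prime_pow {G : Type*} [Group G] [Finite G] (r : ℕ) [Fact r.Prime] (N : Subgroup G)
    (y : G) (hy : y ∈ N) (hyr : (orderOf y).Coprime r) (hyc : y ∉ Subgroup.center G) :
    ∃ q : ℕ, q.Prime ∧ q ≠ r ∧ ∃ y' ∈ N, y' ∉ Subgroup.center G ∧ ∃ n : ℕ, orderOf y' = q ^ n := by
  have hr : r.Prime := Fact.out
  have key : ∀ m : ℕ, ∀ y ∈ N, orderOf y = m → (orderOf y).Coprime r → y ∉ Subgroup.center G →
      ∃ q : ℕ, q.Prime ∧ q ≠ r ∧ ∃ y' ∈ N, y' ∉ Subgroup.center G ∧ ∃ n : ℕ, orderOf y' = q ^ n := by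
    intro m
    induction m using Nat.strong_induction_on with
    | _ m ih =>
      intro y hy hm hyr hyc
      have hm1 : m ≠ 1 := by
        intro h1
        rw [h1, orderOf_eq_one_iff] at hm
        exact hyc (hm ▸ one_mem _)
      have hm0 : m ≠ 0 := by rw [← hm]; exact (orderOf_pos y).ne'
      obtain ⟨q, hqdef⟩ : ∃ q, q = m.minFac := ⟨_, rfl⟩
      have hq : q.Prime := hqdef ▸ Nat.minFac_prime hm1
      have hqm : q ∣ m := hqdef ▸ Nat.minFac_dvd m
      obtain ⟨k, t, ht, hkt⟩ := Nat.exists_eq_pow_mul_and_not_dvd hm0 q hq.ne_one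
      have hmr : m.Coprime r := hm ▸ hyr
      have hqr : q ≠ r := by
        intro e
        have h1 : r ∣ m := e ▸ hqm
        exact hr.one_lt.ne' (hmr.symm.eq_one_of_dvd h1)
      by_cases ht1 : t = 1
      · exact ⟨q, hq, hqr, y, hy, hyc, k, by rw [hm, hkt, ht1, mul_one]⟩
      · have hk0 : k ≠ 0 := by
          rintro rfl
          rw [pow_zero, one_mul] at hkt
          exact ht (hkt ▸ hqm)
        have ht0 : t ≠ 0 := by
          rintro rfl
          rw [mul_zero] at hkt
          exact hm0 hkt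
        have ha1 : 1 < q ^ k := Nat.one_lt_pow hk0 hq.one_lt
        have ht2 : 1 < t := by omega
        have ho1 : orderOf (y ^ (q ^ k)) = t := by
          rw [orderOf_pow_of_dvd (pow_ne_zero _ hq.ne_zero) (by rw [hm, hkt]; exact dvd_mul_right _ _),
            hm, hkt, Nat.mul_div_cancel_left _ (pow_pos hq.pos _)]
        have ho2 : orderOf (y ^ t) = q ^ k := by
          rw [orderOf_pow_of_dvd ht0 (by rw [hm, hkt]; exact dvd_mul_left _ _), hm, hkt,
            Nat.mul_div_cancel _ (by omega)]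
        by_cases hc1 : y ^ (q ^ k) ∈ Subgroup.center G
        · by_cases hc2 : y ^ t ∈ Subgroup.center G
          · exfalso
            apply hyc
            have hcop : Nat.Coprime (q ^ k) t :=
              Nat.Coprime.pow_left k ((Nat.Prime.coprime_iff_not_dvd hq).2 ht)
            have hb := Nat.gcd_eq_gcd_ab (q ^ k) t
            rw [hcop.gcd_eq_one] at hb
            have e : y = (y ^ (q ^ k)) ^ (Nat.gcdA (q ^ k) t) * (y ^ t) ^ (Nat.gcdB (q ^ k) t) := by
              rw [← zpow_natCast y (q ^ k), ← zpow_natCast y t, ← zpow_mul, ← zpow_mul, ← zpow_add, ← hb]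
              simp
            rw [e]
            exact mul_mem (zpow_mem hc1 _) (zpow_mem hc2 _)
          · refine ih (q ^ k) ?_ (y ^ t) (pow_mem hy _) ho2 ?_ hc2
            · rw [hkt]
              exact lt_mul_of_one_lt_right (by omega) ht2
            · rw [ho2]
              exact Nat.Coprime.coprime_dvd_left (by rw [hkt]; exact dvd_mul_right _ _) hmr
        · refine ih t ?_ (y ^ (q ^ k)) (pow_mem hy _) ho1 ?_ hc1
          · rw [hkt]
            exact lt_mul_of_one_lt_left (by omega) ha1
          · rw [ho1]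
            exact Nat.Coprime.coprime_dvd_left (by rw [hkt]; exact dvd_mul_left _ _) hmr
  exact key _ y hy rfl hyr hyc

end Cfsg.Agent.Lib.H98TwoPP
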