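import Mathlib
import Cfsg.Agent.Lib.Helper98TwoDefs
import Cfsg.Agent.Lib.H98TwoKey
import Cfsg.Agent.Lib.H98TwoU
import Cfsg.Agent.Lib.H98TwoCaseA
import Cfsg.Agent.Lib.H98TwoNil
import Cfsg.Agent.Lib.H98TwoPP
import Cfsg.Agent.Lib.H98TwoB1
import Cfsg.Agent.Lib.H98TwoB2
import Cfsg.Agent.Lib.H98TwoE1
import Cfsg.Agent.Lib.H98TwoDa
import Cfsg.Agent.Lib.H98TwoDb
import Cfsg.Agent.Lib.H98TwoDz
import Cfsg.Agent.Lib.H98TwoDc
import Cfsg.Agent.Lib.H98TwoDd

namespace Cfsg.Agent.Lib.H98TwoMain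
open Cfsg.Agent.Lib.Helper98TwoDefs
open Cfsg.Agent.Lib

theorem coprime_of_pow {K : Type*} [Group K] {q l : ℕ} (hq : q.Prime) (hl : l.Prime) (hne : l ≠ q)
    {b : K} (hb : ∃ n : ℕ, b ^ q ^ n = 1) : (orderOf b).Coprime l := by
  obtain ⟨n, hn⟩ := hb
  exact Nat.Coprime.coprime_dvd_left (orderOf_dvd_of_pow_eq_one hn)
    (Nat.Coprime.pow_left n ((Nat.coprime_primes hq hl).2 (Ne.symm hne)))

theorem lemD {X K : Type*} [Group X] [Finite X] [CommGroup K] [Finite K]
    {φ : X →* MulAut K} {Z : Subgroup K} (h : Fx φ Z) (r q : ℕ) [Fact r.Prime] [Fact q.Prime]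
    (hrq : r ≠ q) (a b : K) (ha : a ∉ Z) (hb : b ∉ Z) (har : ∃ n : ℕ, a ^ r ^ n = 1)
    (hbq : ∃ n : ℕ, b ^ q ^ n = 1) (hr : r ∣ Nat.card X) (hq : q ∣ Nat.card X) : False := by
  have hN : ∀ L : Subgroup X, L.Normal → L ≠ ⊥ → r ∣ Nat.card L ∧ q ∣ Nat.card L := by
    intro L hLn hL
    haveI := hLn
    exact ⟨H98TwoDa.dvd_card_normal h r a ha har hr L hL,
      H98TwoDa.dvd_card_normal h q b hb hbq hq L hL⟩
  have hodd := H98TwoDc.odd_card h r q hrq a b ha hb har hbq hN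
  have huniq : ∀ l : ℕ, l.Prime → ∀ z e : X, orderOf z = l → orderOf e = l → Commute z e →
      e ∈ Subgroup.zpowers z := by
    intro l hl z e hz he hc
    haveI : Fact l.Prime := ⟨hl⟩
    by_cases hlr : l = r
    · have hlq : l ≠ q := by rw [hlr]; exact hrq
      exact H98TwoDb.mem_zpowers h l b hb (coprime_of_pow Fact.out hl hlq hbq) z e hz he hc
    · exact H98TwoDb.mem_zpowers h l a ha (coprime_of_pow Fact.out hl hlr har) z e hz he hc
  haveI := H98TwoDz.isZGroup X hodd huniq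
  haveI : Nontrivial X := by
    rw [← Finite.one_lt_card_iff_nontrivial]
    have h1 : 0 < Nat.card X := Nat.card_pos
    have h2 := Nat.le_of_dvd h1 hr
    have h3 := (Fact.out : r.Prime).two_le
    omega
  exact H98TwoDd.false_of_solvable X r q hrq hN

theorem dvd_card_of_pow {X : Type*} [Group X] [Finite X] {r : ℕ} (hr : r.Prime) (v : X)
    (hv : v ≠ 1) (hvr : ∃ n : ℕ, v ^ r ^ n = 1) : r ∣ Nat.card X := by
  obtain ⟨n, hn⟩ := hvr
  obtain ⟨k, -, hk⟩ := (Nat.dvd_prime_pow hr).1 (orderOf_dvd_of_pow_eq_one hn)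
  have hk0 : k ≠ 0 := by
    rintro rfl
    rw [pow_zero, orderOf_eq_one_iff] at hk
    exact hv hk
  have h1 : r ∣ orderOf v := by rw [hk]; exact dvd_pow_self r hk0
  exact h1.trans (orderOf_dvd_natCard v)

theorem lemD' {Y K : Type*} [Group Y] [Group K] [Finite K] (hcomm : ∀ a b : K, a * b = b * a)
    (ψ : Y →* MulAut K) (Z : Subgroup K)
    (hfix : ∀ g : Y, ψ g ≠ 1 → ∀ k : K, ψ g k = k ↔ k ∈ Z)
    (r q : ℕ) [Fact r.Prime] [Fact q.Prime]
    (hrq : r ≠ q) (a b : K) (ha : a ∉ Z) (hb : b ∉ Z) (har : ∃ n : ℕ, a ^ r ^ n = 1)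
    (hbq : ∃ n : ℕ, b ^ q ^ n = 1)
    (v s : Y) (hv : ψ v ≠ 1) (hvr : ∃ n : ℕ, v ^ r ^ n = 1) (hs : ψ s ≠ 1)
    (hsq : ∃ n : ℕ, s ^ q ^ n = 1) : False := by
  letI : CommGroup K := { ‹Group K› with mul_comm := hcomm }
  haveI : Finite (MulAut K) := Finite.of_injective (fun f : MulAut K => (f : K → K))
    (fun f g hfg => DFunLike.coe_injective hfg)
  have hFx : Fx (ψ.range.subtype) Z := by
    rintro ⟨g, y, rfl⟩ hg k
    have : ψ y ≠ 1 := by
      intro h1
      apply hg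
      exact Subtype.ext h1
    exact hfix y this k
  have hr : r ∣ Nat.card ψ.range := by
    refine dvd_card_of_pow Fact.out (⟨ψ v, v, rfl⟩ : ψ.range) ?_ ?_
    · intro h1
      exact hv (congrArg Subtype.val h1)
    · obtain ⟨n, hn⟩ := hvr
      refine ⟨n, Subtype.ext ?_⟩
      simp only [Subgroup.coe_pow, Subgroup.coe_one]
      rw [← map_pow, hn, map_one]
  have hq : q ∣ Nat.card ψ.range := by
    refine dvd_card_of_pow Fact.out (⟨ψ s, s, rfl⟩ : ψ.range) ?_ ?_
    · intro h1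
      exact hs (congrArg Subtype.val h1)
    · obtain ⟨n, hn⟩ := hsq
      refine ⟨n, Subtype.ext ?_⟩
      simp only [Subgroup.coe_pow, Subgroup.coe_one]
      rw [← map_pow, hn, map_one]
  exact lemD hFx r q hrq a b ha hb har hbq hr hq


theorem mem_of_pow {G : Type*} [Group G] [Finite G] (r : ℕ) [Fact r.Prime]
    (R : Sylow r G) (N : Subgroup G) [N.Normal] (hRN : (R : Subgroup G) ≤ N)
    (v : G) (hv : ∃ n : ℕ, orderOf v = r ^ n) : v ∈ N := by
  have hp : IsPGroup r (Subgroup.zpowers v) := by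
    obtain ⟨n, hn⟩ := hv
    apply IsPGroup.of_card (n := n)
    rw [Nat.card_zpowers, hn]
  obtain ⟨P, hP⟩ := hp.exists_le_sylow
  obtain ⟨g, hg⟩ := MulAction.exists_smul_eq G R P
  have hvP : v ∈ (P : Subgroup G) := hP (Subgroup.mem_zpowers v)
  rw [← hg, Sylow.coe_subgroup_smul, Subgroup.mem_pointwise_smul_iff_inv_smul_mem] at hvP
  have h1 := hRN hvP
  have h2 := ‹N.Normal›.conj_mem _ h1 g
  simpa [MulAut.smul_def, MulAut.conj_inv_apply, mul_assoc] using h2

theorem main {G : Type*} [Group G] [Finite G] (r : ℕ) [Fact r.Prime]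
    (R : Sylow r G) (hR : ¬ (R : Subgroup G) ≤ Subgroup.center G) (N : Subgroup G) [N.Normal]
    (hRN : (R : Subgroup G) ≤ N) (m : ℕ) (h : Two N m) : Group.IsNilpotent N := by
  by_cases hrm : r ∣ m
  swap
  · exact H98TwoCaseA.nilpotent r R hR N hRN m h hrm
  apply H98TwoNil.nilpotent r N
  intro y0 hy0 hy0r
  by_contra hy0c
  obtain ⟨q, hq, hqr, y, hy, hyc, ny, hyo⟩ := H98TwoPP.exists_prime_pow r N y0 hy0 hy0r hy0c
  haveI : Fact q.Prime := ⟨hq⟩
  obtain ⟨u, hu, huy, huc, nu, huo⟩ := H98TwoB1.exists_u r R hR N hRN m h y hy hyc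
  have hyr : (orderOf y).Coprime r := by
    rw [hyo]
    exact Nat.Coprime.pow_left _ ((Nat.coprime_primes hq Fact.out).2 hqr)
  set C := Subgroup.centralizer ({y} : Set G) with hC
  have memC : ∀ g : G, g ∈ C ↔ Commute g y := by
    intro g
    rw [hC, Subgroup.mem_centralizer_singleton_iff]
    exact ⟨fun h1 => h1, fun h1 => h1⟩
  have hidx : C.index = m := by
    rcases h y hy with h1 | h1
    · exfalso
      apply hyc
      have h2 : C = ⊤ := Subgroup.index_eq_one.mp h1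
      rw [Subgroup.mem_center_iff]
      intro g
      have hg : g ∈ C := h2 ▸ Subgroup.mem_top g
      exact ((memC g).1 hg)
    · exact h1
  have F1 : ∀ k ∈ N, Commute k y → C ≤ Subgroup.centralizer ({k} : Set G) := fun k hk hky =>
    H98TwoB2.le_centralizer r N m h y u hy hu hyc huc huy hyr ⟨nu, huo⟩ k hk hky
  have F2 : ∀ k ∈ N, Commute k y → k ∉ Subgroup.center G →
      Subgroup.centralizer ({k} : Set G) = C := fun k hk hky hkc =>
    (H98TwoKey.eq_of_le h hy hk hyc hkc (F1 k hk hky)).symm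
  set Kg : Subgroup G := C ⊓ N with hKg
  have E : ∀ (l : ℕ) [Fact l.Prime], l ∣ m → ∀ w ∈ N, Commute w y → w ∉ Subgroup.center G →
      (∃ n : ℕ, orderOf w = l ^ n) →
      ∃ g : G, g ∈ Subgroup.normalizer (Kg : Set G) ∧ g ∉ C ∧ ∃ n : ℕ, orderOf g = l ^ n := by
    intro l _ hlm w hw hwy hwc hwo
    obtain ⟨D, g, hDC, hwD, hgC, hgo, hgD⟩ :=
      H98TwoE1.exists_normalizing l C (hidx ▸ hlm) w ((memC w).2 hwy) hwo
    refine ⟨g, ?_, hgC, hgo⟩
    have hw' : g * w * g⁻¹ ∈ N := ‹N.Normal›.conj_mem _ hw g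
    have hw'C : Commute (g * w * g⁻¹) y := (memC _).1 (hDC (hgD w hwD))
    have hw'c : g * w * g⁻¹ ∉ Subgroup.center G := by
      intro h1
      apply hwc
      have h2 := (inferInstance : (Subgroup.center G).Normal).conj_mem _ h1 g⁻¹
      simpa [mul_assoc] using h2
    have e1 := F2 w hw hwy hwc
    have e2 := F2 _ hw' hw'C hw'c
    rw [Subgroup.mem_normalizer_iff]
    intro c
    have hcC : c ∈ C ↔ g * c * g⁻¹ ∈ C := by
      rw [← e1]
      conv_rhs => rw [e1, ← e2]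
      rw [Subgroup.mem_centralizer_singleton_iff, Subgroup.mem_centralizer_singleton_iff]
      constructor
      · intro h1
        calc g * c * g⁻¹ * (g * w * g⁻¹) = g * (c * w) * g⁻¹ := by group
          _ = g * (w * c) * g⁻¹ := by rw [h1]
          _ = g * w * g⁻¹ * (g * c * g⁻¹) := by group
      · intro h1
        have : g * (c * w) * g⁻¹ = g * (w * c) * g⁻¹ := by
          calc g * (c * w) * g⁻¹ = g * c * g⁻¹ * (g * w * g⁻¹) := by group
            _ = g * w * g⁻¹ * (g * c * g⁻¹) := h1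
            _ = g * (w * c) * g⁻¹ := by group
        exact mul_left_cancel (mul_right_cancel this)
    have hcN : c ∈ N ↔ g * c * g⁻¹ ∈ N := by
      constructor
      · intro h1
        exact ‹N.Normal›.conj_mem _ h1 g
      · intro h1
        have h2 := ‹N.Normal›.conj_mem _ h1 g⁻¹
        simpa [mul_assoc] using h2
    rw [hKg]
    simp only [Subgroup.mem_inf]
    rw [hcC, hcN]
  obtain ⟨v, hvK, hvC, nv, hvo⟩ := E r hrm u hu huy huc ⟨nu, huo⟩
  have hvN : v ∈ N := mem_of_pow r R N hRN v ⟨nv, hvo⟩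
  have hqm : q ∣ m := by
    by_contra hqm
    have hp : IsPGroup q (Subgroup.zpowers y) := by
      apply IsPGroup.of_card (n := ny)
      rw [Nat.card_zpowers, hyo]
    obtain ⟨P, hP⟩ := hp.exists_le_sylow
    have hx : ∀ x ∈ N, ¬ q ∣ (Subgroup.centralizer ({x} : Set G)).index := by
      intro x hx
      rcases h x hx with h1 | h1
      · rw [h1]
        exact hq.one_lt.ne' ∘ Nat.dvd_one.mp
      · rw [h1]
        exact hqm
    exact hvC ((memC v).2 (H98TwoU.comm q N P hx v hvN y (hP (Subgroup.mem_zpowers y)) hy))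
  obtain ⟨s, hsK, hsC, ns, hso⟩ := E q hqm y hy (Commute.refl y) hyc ⟨ny, hyo⟩
  -- the action
  have hKcomm : ∀ a b : Kg, a * b = b * a := by
    rintro ⟨a, haC, haN⟩ ⟨b, hbC, hbN⟩
    apply Subtype.ext
    have h1 := F1 a haN ((memC a).1 haC) hbC
    rw [Subgroup.mem_centralizer_singleton_iff] at h1
    exact h1.symm
  have hone : ∀ g : Subgroup.normalizer (Kg : Set G), (g : G) ∈ C → Kg.normalizerMonoidHom g = 1 := by
    intro g hg
    ext ⟨k, hkC, hkN⟩
    have h1 := F1 k hkN ((memC k).1 hkC) hg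
    rw [Subgroup.mem_centralizer_singleton_iff] at h1
    simp only [Subgroup.normalizerMonoidHom_apply_apply_coe, MulAut.one_apply]
    rw [h1, mul_inv_cancel_right]
  have hne : ∀ g : Subgroup.normalizer (Kg : Set G), (g : G) ∉ C → Kg.normalizerMonoidHom g ≠ 1 := by
    intro g hg h1
    apply hg
    rw [memC]
    have h2 := congrArg (fun f : MulAut Kg => ((f ⟨y, (memC y).2 (Commute.refl y), hy⟩ : Kg) : G)) h1
    simp only [Subgroup.normalizerMonoidHom_apply_apply_coe, MulAut.one_apply] at h2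
    exact mul_inv_eq_iff_eq_mul.mp h2
  refine lemD' hKcomm Kg.normalizerMonoidHom ((Subgroup.center G).subgroupOf Kg) ?_ r q
    (Ne.symm hqr) ⟨u, (memC u).2 huy, hu⟩ ⟨y, (memC y).2 (Commute.refl y), hy⟩ ?_ ?_ ?_ ?_
    ⟨v, hvK⟩ ⟨s, hsK⟩ (hne _ hvC) ?_ (hne _ hsC) ?_
  · intro g hg k
    obtain ⟨k, hkC, hkN⟩ := k
    rw [Subgroup.mem_subgroupOf]
    constructor
    · intro h1
      by_contra hkc
      apply hg
      apply hone
      rw [← F2 k hkN ((memC k).1 hkC) hkc, Subgroup.mem_centralizer_singleton_iff]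
      have h2 := congrArg Subtype.val h1
      simp only [Subgroup.normalizerMonoidHom_apply_apply_coe] at h2
      exact mul_inv_eq_iff_eq_mul.mp h2
    · intro h1
      apply Subtype.ext
      simp only [Subgroup.normalizerMonoidHom_apply_apply_coe]
      rw [Subgroup.mem_center_iff] at h1
      rw [h1 (g : G), mul_inv_cancel_right]
  · rw [Subgroup.mem_subgroupOf]; exact huc
  · rw [Subgroup.mem_subgroupOf]; exact hyc
  · exact ⟨nu, Subtype.ext (by simp only [Subgroup.coe_pow, Subgroup.coe_one]; rw [← huo, pow_orderOf_eq_one])⟩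
  · exact ⟨ny, Subtype.ext (by simp only [Subgroup.coe_pow, Subgroup.coe_one]; rw [← hyo, pow_orderOf_eq_one])⟩
  · exact ⟨nv, Subtype.ext (by simp only [Subgroup.coe_pow, Subgroup.coe_one]; rw [← hvo, pow_orderOf_eq_one])⟩
  · exact ⟨ns, Subtype.ext (by simp only [Subgroup.coe_pow, Subgroup.coe_one]; rw [← hso, pow_orderOf_eq_one])⟩

end Cfsg.Agent.Lib.H98TwoMain
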