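import Cfsg.Agent.Lib.H99EaQuot
import Cfsg.Agent.Lib.H99EaSup
import Cfsg.Agent.Lib.H99EaClos
import Cfsg.Agent.Lib.H99EaSyl
import Cfsg.Agent.Lib.H99EaEquiv
import Cfsg.Prelude.Def_LieTypeChar
import Cfsg.Prelude.Def_ChevStructure
import Cfsg.Agent.S2326
import Cfsg.Agent.Lib.Helper22ChevBasic

set_option autoImplicit false

namespace Cfsg.Agent.Lib.H99EaChev

open Cfsg.Agent.Lib.Helper99EaDefs Cfsg.Agent.Lib.Helper22ChevBasic

/-- FAMILY exceptional Chevalley groups. -/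
theorem main {F : Type*} [Field F] [Fintype F] [CharP F 2] (D : Cfsg.Lie.ChevalleyDatum)
    (hD : D ∈ [Cfsg.Lie.chevG2, Cfsg.Lie.chevF4, Cfsg.Lie.chevE6, Cfsg.Lie.chevE7, Cfsg.Lie.chevE8]) :
    EA (D.group F) := by
  have : Fact (Nat.Prime 2) := ⟨Nat.prime_two⟩
  have hD' : Std D := by
    simp only [List.mem_cons, List.not_mem_nil, or_false] at hD ⊢
    tauto
  obtain ⟨P, hP⟩ := Cfsg.Agent.S2326.result (F := F) 2 D hD'
  apply Cfsg.Agent.Lib.H99EaSyl.EA_of_sylow P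
  rw [hP]
  apply Cfsg.Agent.Lib.H99EaEquiv.sqD_of_equiv
    (Subgroup.subgroupOfEquivOfLe (posUnipotent_le_group (F := F) hD'))
  rw [posUnipotent_eq hD']
  apply Cfsg.Agent.Lib.H99EaClos.sqD_closure_invol
  rintro s ⟨r, t, _, rfl⟩
  rw [pow_two, xG_add, CharTwo.add_self_eq_zero, xG_zero]

end Cfsg.Agent.Lib.H99EaChev
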