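import Cfsg.Agent.Lib.H99EaQuot
import Cfsg.Agent.Lib.H99EaSup
import Cfsg.Prelude.Def_LieTypeChar
import Cfsg.Agent.Lib.H99EaTwC
import Cfsg.Agent.Lib.Helper23Tw3D4c

set_option autoImplicit false

namespace Cfsg.Agent.Lib.H99EaD4

open Cfsg.Agent.Lib.Helper99EaDefs
open Cfsg.Lie Cfsg.Lie.ChevalleyDatum
open Cfsg.Agent.Lib.Helper23RG Cfsg.Agent.Lib.Helper23Table Cfsg.Agent.Lib.Helper23Weyl
open Cfsg.Agent.Lib.Helper23Chev Cfsg.Agent.Lib.Helper23Fast Cfsg.Agent.Lib.Helper23Tw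
open Cfsg.Agent.Lib.Helper23TG Cfsg.Agent.Lib.Helper23Diag Cfsg.Agent.Lib.Helper23TwC
open Cfsg.Agent.Lib.Helper23TwT3D4 Cfsg.Agent.Lib.Helper23FastT3D4 Cfsg.Agent.Lib.Helper23FF
open Cfsg.Agent.Lib.Helper23TwKer Cfsg.Agent.Lib.Helper23Tw3D4 Cfsg.Agent.Lib.H99EaTwC

theorem main' {K : Type*} [Field K] [Fintype K] [CharP K 2] (q : ℕ) (hq : IsPrimePow q)
    (hK : Fintype.card K = q ^ 3) : EA ↥(tws K q) := by
  obtain ⟨f, hf, hq2⟩ := q_pow_two q 3 (by norm_num) hq hK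
  have hev : Even q := by rw [hq2]; exact (even_two).pow_of_ne_zero hf
  have hq1 : 1 ≤ q := by have := hq.two_le; omega
  have hs : SqD ↥(X.D.posUnipotent K ⊓ tws K q) := by
    obtain ⟨sg, φ, hs, hφ, e⟩ := exists_ctx hq hK
    rw [← e]
    exact sqD_UC chk hT hR Helper23FastG2.valid hs rchk hCF Helper23FastG2.exists_w0
  refine EA_fin (tws K q) (X.D.posUnipotent K) q 12 f hq2 (s1088 hq hK) hs
    ((q ^ 2 - 1) * (q ^ 6 - 1) * (q ^ 8 + q ^ 4 + 1)) 1 ?_ ?_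
  · refine ((odd_sub hev 2 (by norm_num) hq1).mul (odd_sub hev 6 (by norm_num) hq1)).mul ?_
    exact ((hev.pow_of_ne_zero (by norm_num)).add (hev.pow_of_ne_zero (by norm_num))).add_odd odd_one
  · rw [one_mul, s1067 hq hK]
    simp only [mul_assoc]

/-- FAMILY 3D4. -/
theorem main {K : Type*} [Field K] [Fintype K] [CharP K 2] (q : ℕ) (hq : IsPrimePow q)
    (hK : Fintype.card K = q ^ 3) : EA (Cfsg.Lie.twistedD4 K q) := main' q hq hK

end Cfsg.Agent.Lib.H99EaD4
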