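import Cfsg.Agent.Lib.H99EaPair

set_option autoImplicit false

/-! PROJECT 4625 (S4625, 10u), piece `OpSub` (40 min, pure group theory; also useful for the family `POmega-`).  `EA_of_pair` for a SUBGROUP `Ω` of `G`, with `N, H ≤ Ω` given as subgroups of `G`.

Proof.  `N' := N.subgroupOf Ω`, `H' := H.subgroupOf Ω`.  `eN : ↥N' ≃* ↥N := Subgroup.subgroupOfEquivOfLe hNΩ`, same for `H`.
`IsPGroup 2 N'`: `hN2.of_equiv eN.symm`; `SqD N'`: `H99EaEquiv.sqD_of_equiv eN hN`; cardinalities: `Nat.card_congr eN.toEquiv`.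
`H' ≤ normalizer N'`: `Subgroup.mem_normalizer_iff`, `Subgroup.mem_subgroupOf`, coercions (`Subgroup.coe_mul`, `Subgroup.coe_inv`), from `hnorm`.
`N' ⊓ H' = ⊥`: `← Subgroup.inf_subgroupOf..`/ by elements: `x.1 ∈ N ⊓ H = ⊥`, `Subtype.ext`.   Then `H99EaPair.EA_of_pair N' H' ..`. -/

namespace Cfsg.Agent.Lib.H99EaOpSub

open Cfsg.Agent.Lib.Helper99EaDefs

theorem EA_of_pair_sub {G : Type*} [Group G] [Finite G] (Ω N H : Subgroup G) (hNΩ : N ≤ Ω) (hHΩ : H ≤ Ω)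
    (hN2 : IsPGroup 2 N) (hH2 : IsPGroup 2 H) (hnorm : H ≤ Subgroup.normalizer (N : Set G)) (hd : N ⊓ H = ⊥)
    (hN : SqD N) (hH : SqD H) (k c d : ℕ) (hk : 2 ^ k ≤ Nat.card N * Nat.card H) (hc : Odd c)
    (hG : d * Nat.card Ω = 2 ^ k * c) : EA ↥Ω := by
  have eN : ↥(N.subgroupOf Ω) ≃* ↥N := Subgroup.subgroupOfEquivOfLe hNΩ
  have eH : ↥(H.subgroupOf Ω) ≃* ↥H := Subgroup.subgroupOfEquivOfLe hHΩ
  refine Cfsg.Agent.Lib.H99EaPair.EA_of_pair (N.subgroupOf Ω) (H.subgroupOf Ω)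
    (hN2.of_equiv eN.symm) (hH2.of_equiv eH.symm) ?_ ?_
    (Cfsg.Agent.Lib.H99EaEquiv.sqD_of_equiv eN hN) (Cfsg.Agent.Lib.H99EaEquiv.sqD_of_equiv eH hH)
    k c d ?_ hc hG
  · intro x hx
    rw [Subgroup.mem_normalizer_iff]
    intro y
    have h1 := Subgroup.mem_normalizer_iff.1 (hnorm (Subgroup.mem_subgroupOf.1 hx)) (y : G)
    simpa [Subgroup.mem_subgroupOf] using h1
  · rw [eq_bot_iff]
    intro x hx
    have h1 : (x : G) ∈ N ⊓ H := ⟨Subgroup.mem_subgroupOf.1 hx.1, Subgroup.mem_subgroupOf.1 hx.2⟩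
    rw [hd, Subgroup.mem_bot] at h1
    rw [Subgroup.mem_bot]
    exact Subtype.ext h1
  · rw [Nat.card_congr eN.toEquiv, Nat.card_congr eH.toEquiv]
    exact hk

end Cfsg.Agent.Lib.H99EaOpSub
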