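import Cfsg.Agent.Lib.H99EaSyl
import Cfsg.Agent.Lib.Helper8SzIso
import Cfsg.Agent.Lib.Helper8Sz5
import Cfsg.Prelude.Def_LieTypeChar

set_option autoImplicit false

namespace Cfsg.Agent.Lib.H99EaSz

open Cfsg.Agent.Lib.Helper99EaDefs Cfsg.Agent.Lib.Helper8Sz4

/-- FAMILY Suzuki. -/
theorem main {F : Type*} [Field F] [Fintype F] (m : ℕ) (hm : 1 ≤ m)
    (hF : Fintype.card F = 2 ^ (2 * m + 1)) : EA (Cfsg.Lie.Sz F (2 ^ (m + 1))) := by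
  have : Fact (Nat.Prime 2) := ⟨Nat.prime_two⟩
  apply Cfsg.Agent.Lib.H99EaEquiv.EA_of_equiv (Cfsg.Agent.Lib.Helper8SzIso.szIso hF hm).symm
  have hfin : Finite (Cfsg.Sz F m) := inferInstance
  apply Cfsg.Agent.Lib.H99EaSyl.EA_of_sylow ((isPGroup_Q hF hm).toSylow (index_Q hF hm))
  show SqD (Q hF hm)
  intro x
  obtain ⟨a, b, rfl⟩ := q_surj hF hm x
  rw [mem_commutator_iff hF hm, sq, q_mul]
  have h2 : a + a = 0 := Cfsg.Agent.Lib.Helper8Sz.add_self hF a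
  rw [h2]
  exact ⟨_, rfl⟩

end Cfsg.Agent.Lib.H99EaSz
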