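import Cfsg.Agent.Lib.H99McDefs

set_option autoImplicit false
set_option linter.unusedSectionVars false
set_option linter.unusedVariables false

namespace Cfsg.Agent.Lib.H99Mc

open Subgroup

/-- properties of `X = N / Z(N)` in the perfect case -/
structure PX (X : Type*) [Group X] : Prop where
  x1 : ∀ x y : X, x ≠ 1 → y ≠ 1 → Commute x y → (orderOf x).Coprime (orderOf y) →
    centralizer ({x} : Set X) = centralizer ({y} : Set X)
  x2 : ∀ x : X, x ≠ 1 → ∀ g : X, (∀ d ∈ centralizer ({x} : Set X), g * d * g⁻¹ ∈ centralizer ({x} : Set X)) →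
    g ∈ centralizer ({x} : Set X)
  x3 : ⁅(⊤ : Subgroup X), (⊤ : Subgroup X)⁆ = ⊤

/-- nonidentity elements whose centralizer is a nonabelian Sylow `p`-subgroup -/
def Ap (X : Type*) [Group X] (p : ℕ) : Set X :=
  {x | x ≠ 1 ∧ ∃ S : Sylow p X, (S : Subgroup X) = centralizer ({x} : Set X) ∧ ¬ (∀ a ∈ S, ∀ b ∈ S, a * b = b * a)}

end Cfsg.Agent.Lib.H99Mc
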