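import Cfsg.Agent.Lib.H99McDefs
import Cfsg.Agent.Lib.H99McDefs2

set_option autoImplicit false
set_option linter.unusedSectionVars false
set_option linter.unusedVariables false

namespace Cfsg.Agent.Lib.H99Mc

open Subgroup

/-- `y = 1` trivial; else `x1` gives `C(x) = C(y)`, so `d ∈ C(y)`. -/
theorem a1 {X : Type*} [Group X] [Finite X] (hX : PX X) {p k : ℕ} (hp : p.Prime) {x y d : X} (hx : x ≠ 1) (hxo : orderOf x = p ^ k)
    (hy : y ∈ centralizer ({x} : Set X)) (hyo : (orderOf y).Coprime p) (hd : d ∈ centralizer ({x} : Set X)) : d * y = y * d := by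
  by_cases hy1 : y = 1
  · subst hy1; simp
  · have hc : Commute x y := (Subgroup.mem_centralizer_singleton_iff.1 hy).symm
    have hcop : (orderOf x).Coprime (orderOf y) := by
      rw [hxo]
      exact (Nat.Coprime.pow_right k hyo).symm
    have h := hX.x1 x y hx hy1 hc hcop
    rw [h] at hd
    exact Subgroup.mem_centralizer_singleton_iff.1 hd

end Cfsg.Agent.Lib.H99Mc
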