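import Cfsg.Agent.Lib.H99McDefs
import Cfsg.Agent.Lib.H99McDefs2
import Cfsg.Agent.Lib.H99McA1

set_option autoImplicit false
set_option linter.unusedSectionVars false
set_option linter.unusedVariables false

namespace Cfsg.Agent.Lib.H99Mc

open Subgroup

/-- If some `d ∈ C(x)` has order not a power of `p`, a power `y` of `d` has prime order `q ≠ p`; `y ∈ C(x)`, `C(y) = C(x)` (`x1`). By `a1` for `x`: all `p'`-elements of `C(x)` are central in `C(x)`;
by `a1` for `y`: all `q'`-elements are. Every `e ∈ C(x)` is a product of two powers of itself, a `p`-element (a `q'`-element) and a `p'`-element. So `C(x)` is abelian. -/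
theorem a2 {X : Type*} [Group X] [Finite X] (hX : PX X) {p k : ℕ} (hp : p.Prime) {x : X} (hx : x ≠ 1) (hxo : orderOf x = p ^ k) :
    IsPGroup p (centralizer ({x} : Set X)) ∨ (∀ a ∈ centralizer ({x} : Set X), ∀ b ∈ centralizer ({x} : Set X), a * b = b * a) := by
  by_cases h : IsPGroup p (centralizer ({x} : Set X))
  · exact Or.inl h
  right
  unfold IsPGroup at h
  push Not at h
  obtain ⟨⟨g, hg⟩, hgk⟩ := h
  have hgk' : ∀ k : ℕ, g ^ p ^ k ≠ 1 := by
    intro k hk
    apply hgk k
    ext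
    simpa using hk
  have hn0 : orderOf g ≠ 0 := (orderOf_pos g).ne'
  -- a prime q ≠ p dividing the order of g
  have hq : ∃ q : ℕ, q.Prime ∧ q ∣ orderOf g ∧ q ≠ p := by
    by_contra hcon
    push Not at hcon
    have := Nat.eq_prime_pow_of_unique_prime_dvd hn0 (fun {d} hd hdv => hcon d hd hdv)
    apply hgk' (orderOf g).primeFactorsList.length
    rw [← this]
    exact pow_orderOf_eq_one g
  obtain ⟨q, hqp, hqd, hqne⟩ := hq
  set y : X := g ^ (orderOf g / q) with hy
  have hyo : orderOf y = q := orderOf_pow_orderOf_div hn0 hqd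
  have hyC : y ∈ centralizer ({x} : Set X) := Subgroup.pow_mem _ hg _
  have hy1 : y ≠ 1 := by
    intro h1
    rw [h1, orderOf_one] at hyo
    exact hqp.one_lt.ne hyo
  have hcomm : Commute x y := by
    have := (Subgroup.mem_centralizer_singleton_iff).1 hyC
    exact this.symm
  have hcop : (orderOf x).Coprime (orderOf y) := by
    rw [hxo, hyo]
    exact Nat.Coprime.pow_left _ ((Nat.coprime_primes hp hqp).2 hqne.symm)
  have hCC : centralizer ({x} : Set X) = centralizer ({y} : Set X) := hX.x1 x y hx hy1 hcomm hcop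
  intro a ha b hb
  obtain ⟨e, m, hm, hn⟩ := Nat.exists_eq_pow_mul_and_not_dvd (orderOf_pos a).ne' p hp.ne_one
  have hmcop : Nat.Coprime (p ^ e) m := Nat.Coprime.pow_left _ ((Nat.Prime.coprime_iff_not_dvd hp).2 hm)
  have hbez := Nat.gcd_eq_gcd_ab (p ^ e) m
  rw [hmcop.gcd_eq_one] at hbez
  set A := Nat.gcdA (p ^ e) m
  set B := Nat.gcdB (p ^ e) m
  set a2 : X := (a ^ (p ^ e)) ^ A with ha2
  set a1 : X := (a ^ m) ^ B with ha1
  have hdec : a = a2 * a1 := by
    have h1 : a = a ^ (((p ^ e : ℕ) : ℤ) * A + (m : ℤ) * B) := by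
      rw [← hbez]; simp
    rw [zpow_add, zpow_mul, zpow_mul, zpow_natCast, zpow_natCast] at h1
    exact h1
  have ha2C : a2 ∈ centralizer ({x} : Set X) := Subgroup.zpow_mem _ (Subgroup.pow_mem _ ha _) _
  have ha1C : a1 ∈ centralizer ({x} : Set X) := Subgroup.zpow_mem _ (Subgroup.pow_mem _ ha _) _
  have ha2o : (orderOf a2).Coprime p := by
    have hd : orderOf a2 ∣ m := by
      apply orderOf_dvd_of_pow_eq_one
      rw [ha2, ← zpow_natCast, ← zpow_mul, mul_comm, zpow_mul, zpow_natCast, ← pow_mul, ← hn,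
        pow_orderOf_eq_one, one_zpow]
    exact Nat.Coprime.coprime_dvd_left hd ((Nat.Prime.coprime_iff_not_dvd hp).2 hm).symm
  have ha1o : (orderOf a1).Coprime q := by
    have hd : orderOf a1 ∣ p ^ e := by
      apply orderOf_dvd_of_pow_eq_one
      rw [ha1, ← zpow_natCast, ← zpow_mul, mul_comm, zpow_mul, zpow_natCast, ← pow_mul, mul_comm, ← hn,
        pow_orderOf_eq_one, one_zpow]
    exact Nat.Coprime.coprime_dvd_left hd (Nat.Coprime.pow_left _ ((Nat.coprime_primes hp hqp).2 hqne.symm))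
  have c2 : b * a2 = a2 * b := Cfsg.Agent.Lib.H99Mc.a1 hX hp hx hxo ha2C ha2o hb
  have c1 : b * a1 = a1 * b :=
    Cfsg.Agent.Lib.H99Mc.a1 hX (k := 1) hqp hy1 (by rw [hyo, pow_one]) (hCC ▸ ha1C) ha1o (hCC ▸ hb)
  rw [hdec, mul_assoc, ← c1, ← mul_assoc, ← c2, mul_assoc]

end Cfsg.Agent.Lib.H99Mc
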