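import Cfsg.Agent.Lib.H99McDefs
import Cfsg.Agent.Lib.H99McDefs2

set_option autoImplicit false
set_option linter.unusedSectionVars false
set_option linter.unusedVariables false

namespace Cfsg.Agent.Lib.H99Mc

open Subgroup

/-- Burnside transfer: `MonoidHom.ker_transferSylow_isComplement'` (needs `P.normalizer ≤ centralizer P`): the kernel `K` of `transferSylow` is a normal complement of `P`,
`X ⧸ K` embeds in the abelian group `P`, so `⁅⊤,⊤⁆ ≤ K`, `K = ⊤`, `P = ⊥`. -/
theorem a3 {X : Type*} [Group X] [Finite X] (h3 : ⁅(⊤ : Subgroup X), (⊤ : Subgroup X)⁆ = ⊤) {p : ℕ} [Fact p.Prime] (P : Sylow p X)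
    (hP : normalizer ((P : Subgroup X) : Set X) ≤ centralizer ((P : Subgroup X) : Set X)) : (P : Subgroup X) = ⊥ := by
  have hc := MonoidHom.ker_transferSylow_isComplement' P hP
  set f := MonoidHom.transferSylow P hP with hf
  have hab : ∀ a b : (P : Subgroup X), a * b = b * a := by
    intro a b
    have h1 : (b : X) ∈ centralizer ((P : Subgroup X) : Set X) := hP (Subgroup.le_normalizer b.2)
    exact Subtype.ext (Subgroup.mem_centralizer_iff.1 h1 a a.2)
  have hker : f.ker = ⊤ := by
    rw [eq_top_iff, ← h3, Subgroup.commutator_le]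
    intro a _ b _
    rw [MonoidHom.mem_ker, commutatorElement_def, map_mul, map_mul, map_mul, map_inv, map_inv,
      hab (f a) (f b)]
    group
  rw [hker] at hc
  have h2 := hc.disjoint
  rw [disjoint_iff, top_inf_eq] at h2
  exact h2

end Cfsg.Agent.Lib.H99Mc
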