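import Cfsg.Agent.Lib.H99McDefs2

set_option autoImplicit false
set_option linter.unusedSectionVars false
set_option linter.unusedVariables false

namespace Cfsg.Agent.Lib.H99Mc

open Subgroup

theorem snSylow {X : Type*} [Group X] [Finite X] {p : ℕ} [Fact p.Prime] (H : Subgroup X) (hH : IsPGroup p H)
    (hsn : ∀ g : X, (∀ d ∈ H, g * d * g⁻¹ ∈ H) → g ∈ H) : ∃ S : Sylow p X, (S : Subgroup X) = H := by
  obtain ⟨S, hS⟩ := hH.exists_le_sylow
  refine ⟨S, le_antisymm ?_ hS⟩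
  by_contra hne
  haveI : Group.IsNilpotent S := S.2.isNilpotent
  have hnc := normalizerCondition_of_isNilpotent (G := S)
  have hlt : H.subgroupOf S < ⊤ := by
    rw [lt_top_iff_ne_top]
    intro h
    rw [Subgroup.subgroupOf_eq_top] at h
    exact hne h
  have h1 := hnc _ hlt
  obtain ⟨g, hg, hg'⟩ := SetLike.exists_of_lt h1
  apply hg'
  rw [Subgroup.mem_subgroupOf]
  apply hsn
  intro d hd
  have h2 := (Subgroup.mem_normalizer_iff.mp hg ⟨d, hS hd⟩).mp (by
    show (⟨d, hS hd⟩ : S) ∈ H.subgroupOf S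
    rw [Subgroup.mem_subgroupOf]; exact hd)
  have h3 : g * ⟨d, hS hd⟩ * g⁻¹ ∈ H.subgroupOf S := h2
  rw [Subgroup.mem_subgroupOf] at h3
  simpa using h3

end Cfsg.Agent.Lib.H99Mc
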