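import Cfsg.Agent.Lib.H99McDefs
import Cfsg.Agent.Lib.H99McDefs2
import Cfsg.Agent.Lib.H99McA3
import Cfsg.Agent.Lib.H99McA2
import Cfsg.Agent.Lib.H99McSnSylow

set_option autoImplicit false
set_option linter.unusedSectionVars false
set_option linter.unusedVariables false

namespace Cfsg.Agent.Lib.H99Mc

open Subgroup

theorem a4 {X : Type*} [Group X] [Finite X] (hX : PX X) {p k : ℕ} (hp : p.Prime) {x : X} (hx : x ≠ 1) (hxo : orderOf x = p ^ k)
    (hab : ∀ a ∈ centralizer ({x} : Set X), ∀ b ∈ centralizer ({x} : Set X), a * b = b * a) : False := by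
  haveI : Fact p.Prime := ⟨hp⟩
  have hmem : ∀ g : X, g ∈ centralizer ({x} : Set X) ↔ x * g = g * x := by
    intro g
    rw [Subgroup.mem_centralizer_iff]
    constructor
    · intro h; exact h x rfl
    · intro h y hy; rw [Set.mem_singleton_iff.mp hy]; exact h
  -- key: a Sylow subgroup containing x inside C
  have key : ∃ S : Sylow p X, x ∈ S ∧ (S : Subgroup X) ≤ centralizer ({x} : Set X) := by
    have hxp : IsPGroup p (zpowers x) := IsPGroup.of_card (n := k) (by rw [Nat.card_zpowers, hxo])
    obtain ⟨S, hS⟩ := hxp.exists_le_sylow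
    have hxS : x ∈ S := hS (mem_zpowers x)
    haveI : Nontrivial S := ⟨⟨⟨x, hxS⟩, 1, by
      intro h; exact hx (congrArg Subtype.val h)⟩⟩
    haveI := S.2.center_nontrivial
    obtain ⟨z, hz⟩ := exists_ne (1 : center S)
    set zz : X := ((z : S) : X) with hzz
    have hzz1 : zz ≠ 1 := by
      intro h
      apply hz
      apply Subtype.ext
      apply Subtype.ext
      exact h
    have hzc : ∀ s ∈ S, s * zz = zz * s := by
      intro s hs
      have := (Subgroup.mem_center_iff.mp z.2) ⟨s, hs⟩
      exact congrArg Subtype.val this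
    obtain ⟨j, hj⟩ : ∃ j, orderOf zz = p ^ j := by
      obtain ⟨j, hj⟩ := S.2 (z : S)
      have h1 : zz ^ (p ^ j) = 1 := by
        have := congrArg Subtype.val hj
        simpa using this
      obtain ⟨i, _, hi⟩ := (Nat.dvd_prime_pow hp).1 (orderOf_dvd_of_pow_eq_one h1)
      exact ⟨i, hi⟩
    have hmemz : ∀ g : X, g ∈ centralizer ({zz} : Set X) ↔ zz * g = g * zz := by
      intro g
      rw [Subgroup.mem_centralizer_iff]
      constructor
      · intro h; exact h zz rfl
      · intro h y hy; rw [Set.mem_singleton_iff.mp hy]; exact h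
    have hzC : zz ∈ centralizer ({x} : Set X) := (hmem zz).2 (hzc x hxS)
    have hSz : (S : Subgroup X) ≤ centralizer ({zz} : Set X) := fun s hs => (hmemz s).2 (hzc s hs).symm
    have hCz : centralizer ({x} : Set X) ≤ centralizer ({zz} : Set X) := fun c hc => (hmemz c).2 (hab zz hzC c hc)
    rcases a2 hX hp hzz1 hj with h1 | h1
    · -- p-group
      have h2 : centralizer ({zz} : Set X) = S := S.3 h1 hSz
      have h3 : IsPGroup p (centralizer ({x} : Set X)) := h1.to_le hCz
      obtain ⟨S', hS'⟩ := snSylow _ h3 (hX.x2 x hx)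
      refine ⟨S', ?_, hS'.le⟩
      have : x ∈ (S' : Subgroup X) := by rw [hS']; exact (hmem x).2 rfl
      exact this
    · refine ⟨S, hxS, ?_⟩
      intro s hs
      have h2 : x ∈ centralizer ({zz} : Set X) := hSz hxS
      exact (hmem s).2 (h1 x h2 s (hSz hs))
  obtain ⟨S, hxS, hSC⟩ := key
  have hN : normalizer ((S : Subgroup X) : Set X) ≤ centralizer ((S : Subgroup X) : Set X) := by
    intro g hg
    have hgC : g ∈ centralizer ({x} : Set X) := by
      apply hX.x2 x hx
      intro d hd
      rw [hmem]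
      have h1 : g⁻¹ * x * g ∈ (S : Subgroup X) := by
        have h2 := (Subgroup.mem_normalizer_iff.mp (inv_mem hg) x).mp hxS
        simpa using h2
      have h2 := hab d hd _ (hSC h1)
      calc x * (g * d * g⁻¹) = g * ((g⁻¹ * x * g) * d) * g⁻¹ := by group
        _ = g * (d * (g⁻¹ * x * g)) * g⁻¹ := by rw [h2]
        _ = g * d * g⁻¹ * x := by group
    rw [Subgroup.mem_centralizer_iff]
    intro s hs
    exact hab s (hSC hs) g hgC
  have h3 := a3 hX.x3 S hN
  apply hx
  have : x ∈ (S : Subgroup X) := hxS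
  rw [h3] at this
  exact Subgroup.mem_bot.mp this

end Cfsg.Agent.Lib.H99Mc
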