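import Cfsg.Agent.Lib.H99McDefs
import Cfsg.Agent.Lib.H99McDefs2
import Cfsg.Agent.Lib.H99McA2
import Cfsg.Agent.Lib.H99McA4

set_option autoImplicit false
set_option linter.unusedSectionVars false
set_option linter.unusedVariables false

namespace Cfsg.Agent.Lib.H99Mc

open Subgroup

/-- By `a2`, `a4`: `C = C(x)` is a `p`-group, not abelian. Take a Sylow `S ≥ C` (`IsPGroup.exists_le_sylow`): `N_S(C) ≤ C` by `x2`; normalizers grow, so `S = C`. -/
theorem a5 {X : Type*} [Group X] [Finite X] (hX : PX X) {p k : ℕ} (hp : p.Prime) {x : X} (hx : x ≠ 1) (hxo : orderOf x = p ^ k) :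
    x ∈ Ap X p := by
  have : Fact p.Prime := ⟨hp⟩
  have hnab : ¬ (∀ a ∈ centralizer ({x} : Set X), ∀ b ∈ centralizer ({x} : Set X), a * b = b * a) :=
    fun hab => a4 hX hp hx hxo hab
  have hP : IsPGroup p (centralizer ({x} : Set X)) := (a2 hX hp hx hxo).resolve_right hnab
  obtain ⟨S, hS⟩ := hP.exists_le_sylow
  have hEq : (S : Subgroup X) = centralizer ({x} : Set X) := by
    by_contra hne
    have hlt : centralizer ({x} : Set X) < (S : Subgroup X) := lt_of_le_of_ne hS (Ne.symm hne)
    -- work inside S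
    have hnil : Group.IsNilpotent S := S.2.isNilpotent
    have hnc : NormalizerCondition S := normalizerCondition_of_isNilpotent
    have hlt2 : (centralizer ({x} : Set X)).subgroupOf S < ⊤ := by
      rw [lt_top_iff_ne_top]
      intro h
      rw [Subgroup.subgroupOf_eq_top] at h
      exact absurd h (not_le_of_gt hlt)
    have h3 := hnc _ hlt2
    obtain ⟨g, hgN, hgC⟩ := SetLike.exists_of_lt h3
    apply hgC
    rw [Subgroup.mem_subgroupOf]
    apply hX.x2 x hx
    intro d hd
    have hdS : d ∈ (S : Subgroup X) := hS hd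
    have := (Subgroup.mem_normalizer_iff.1 hgN ⟨d, hdS⟩).1 (by rw [Subgroup.mem_subgroupOf]; exact hd)
    rw [Subgroup.mem_subgroupOf] at this
    simpa using this
  refine ⟨hx, S, hEq, ?_⟩
  intro hab
  apply hnab
  intro a ha b hb
  exact hab a (by rw [← SetLike.mem_coe] at *; exact hS ha) b (hS hb)

end Cfsg.Agent.Lib.H99Mc
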