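import Cfsg.Agent.Lib.H99McDefs
import Cfsg.Agent.Lib.H99McDefs2
import Cfsg.Agent.Lib.H99McA5

set_option autoImplicit false
set_option linter.unusedSectionVars false
set_option linter.unusedVariables false

namespace Cfsg.Agent.Lib.H99Mc

open Subgroup

/-- Take a prime `p ∣ orderOf x`, `y = x ^ (orderOf x / p)` of order `p`. By `a5` `C(y)` is a `p`-group and `x ∈ C(y)`, so `orderOf x = p^k`; `a5` for `x`. `p ∣ card X` since `p ∣ orderOf x`. -/
theorem a6 {X : Type*} [Group X] [Finite X] (hX : PX X) {x : X} (hx : x ≠ 1) : ∃ p ∈ (Nat.card X).primeFactors, x ∈ Ap X p := by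
  have ho1 : orderOf x ≠ 1 := by
    intro h
    exact hx (orderOf_eq_one_iff.1 h)
  obtain ⟨p, hp, hpd⟩ := Nat.exists_prime_and_dvd ho1
  have hpos : 0 < orderOf x := orderOf_pos x
  set y := x ^ (orderOf x / p) with hy
  have hyo : orderOf y = p := by
    rw [hy]
    exact orderOf_pow_orderOf_div (ne_of_gt hpos) hpd
  have hy1 : y ≠ 1 := by
    intro h
    rw [h, orderOf_one] at hyo
    exact hp.one_lt.ne hyo
  have hyA : y ∈ Ap X p := a5 hX (k := 1) hp hy1 (by rw [hyo, pow_one])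
  obtain ⟨-, S, hS, -⟩ := hyA
  have hxS : x ∈ (S : Subgroup X) := by
    rw [hS, mem_centralizer_iff]
    intro z hz
    rw [Set.mem_singleton_iff] at hz
    rw [hz, hy]
    exact (pow_mul_comm' x _)
  obtain ⟨k, hk⟩ := S.2 ⟨x, hxS⟩
  have hk' : x ^ p ^ k = 1 := congrArg Subtype.val hk
  obtain ⟨j, -, hj⟩ := (Nat.dvd_prime_pow hp).1 (orderOf_dvd_of_pow_eq_one hk')
  refine ⟨p, ?_, a5 hX hp hx hj⟩
  rw [Nat.mem_primeFactors]
  exact ⟨hp, hpd.trans (orderOf_dvd_natCard x), Nat.card_pos.ne'⟩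

end Cfsg.Agent.Lib.H99Mc
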