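import Cfsg.Agent.Lib.H99McDefs

set_option autoImplicit false
set_option linter.unusedSectionVars false
set_option linter.unusedVariables false

namespace Cfsg.Agent.Lib.H99Mc

open Subgroup

/-- F1. `M = C_G(x)` is a coatom. `M ⊔ T` (`= M * T`, `T` normalized by `M`) is `M` or `⊤`. If `M`: `T ≤ M ⊓ N = D N x`.
If `⊤`: every `n ∈ N` is `m * t`, `m = n * t⁻¹ ∈ N ⊓ M = D N x ≤ T`, so `n ∈ T`. -/
theorem maxInv {G : Type*} [Group G] (N : Subgroup G) [N.Normal] (h : Hyp N) {x : G} (hx : x ∈ N)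
    (hx' : x ∉ centralizer (N : Set G)) (T : Subgroup G) (hT : T ≤ N) (hD : D N x ≤ T)
    (hinv : ∀ m ∈ centralizer ({x} : Set G), ∀ t ∈ T, m * t * m⁻¹ ∈ T) : T = D N x ∨ T = N := by
  have hco := h x hx hx'
  by_cases hTM : T ≤ centralizer ({x} : Set G)
  · left
    exact le_antisymm (le_inf hT hTM) hD
  · right
    let MT : Subgroup G :=
      { carrier := {g | ∃ m ∈ centralizer ({x} : Set G), ∃ t ∈ T, g = m * t}
        one_mem' := ⟨1, one_mem _, 1, one_mem _, by simp⟩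
        mul_mem' := by
          rintro _ _ ⟨m, hm, t, ht, rfl⟩ ⟨m', hm', t', ht', rfl⟩
          refine ⟨m * m', mul_mem hm hm', (m'⁻¹ * t * m'⁻¹⁻¹) * t',
            mul_mem (hinv _ (inv_mem hm') t ht) ht', by group⟩
        inv_mem' := by
          rintro _ ⟨m, hm, t, ht, rfl⟩
          exact ⟨m⁻¹, inv_mem hm, m * t⁻¹ * m⁻¹, hinv m hm _ (inv_mem ht), by group⟩ }
    have hM : centralizer ({x} : Set G) ≤ MT := fun m hm => ⟨m, hm, 1, one_mem _, by simp⟩
    have hT' : T ≤ MT := fun t ht => ⟨1, one_mem _, t, ht, by simp⟩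
    have hlt : centralizer ({x} : Set G) < MT := by
      refine lt_of_le_of_ne hM ?_
      intro heq
      exact hTM (heq ▸ hT')
    have htop : MT = ⊤ := hco.2 _ hlt
    apply le_antisymm hT
    intro n hn
    have hn' : n ∈ MT := htop ▸ mem_top n
    obtain ⟨m, hm, t, ht, rfl⟩ := hn'
    have hmN : m ∈ N := by
      have : m = m * t * t⁻¹ := by group
      rw [this]
      exact mul_mem hn (inv_mem (hT ht))
    exact mul_mem (hD (mem_inf.2 ⟨hmN, hm⟩)) ht

end Cfsg.Agent.Lib.H99Mc
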