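import Cfsg.Agent.Lib.H99McDefs
import Cfsg.Agent.Lib.H99McMaxInv

set_option autoImplicit false
set_option linter.unusedSectionVars false
set_option linter.unusedVariables false

namespace Cfsg.Agent.Lib.H99Mc

open Subgroup

/-- F5. Let `n ∈ N`, `n ∉ centralizer R`. Then `n ∉ centralizer N` (as `R ≤ N`); `T = D N n ⊔ R` is `≤ N`, `≥ D N n`, invariant under
`C_G(n)` (`R`, `N` normal), `≠ D N n` (else `R ≤ C(n)`), so `T = N` by `maxInv`: every `g ∈ N` is `d * r` (`R` normal), so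
`g n g⁻¹ n⁻¹ = d (r n r⁻¹ n⁻¹) d⁻¹ ∈ R`. The subgroup `{n ∈ N | ∀ g ∈ N, g n g⁻¹ n⁻¹ ∈ R}` contains `N \ centralizer R`, and
`N ⊓ centralizer R ≠ N` by `hR'`; a subgroup containing the complement of a proper subgroup is everything. -/
theorem commLe {G : Type*} [Group G] (N : Subgroup G) [N.Normal] (h : Hyp N) (R : Subgroup G) [R.Normal] (hR : R ≤ N)
    (hR' : ¬ R ≤ centralizer (N : Set G)) : ⁅N, N⁆ ≤ R := by
  let W : Subgroup G :=
    { carrier := {n | n ∈ N ∧ ∀ g ∈ N, g * n * g⁻¹ * n⁻¹ ∈ R}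
      one_mem' := ⟨one_mem _, fun g _ => by simp⟩
      mul_mem' := by
        rintro n n' ⟨hn, h1⟩ ⟨hn', h2⟩
        refine ⟨mul_mem hn hn', fun g hg => ?_⟩
        have e : g * (n * n') * g⁻¹ * (n * n')⁻¹
            = (g * n * g⁻¹ * n⁻¹) * (n * (g * n' * g⁻¹ * n'⁻¹) * n⁻¹) := by group
        rw [e]
        exact mul_mem (h1 g hg) (‹R.Normal›.conj_mem _ (h2 g hg) n)
      inv_mem' := by
        rintro n ⟨hn, h1⟩
        refine ⟨inv_mem hn, fun g hg => ?_⟩
        have e : g * n⁻¹ * g⁻¹ * n⁻¹⁻¹ = n⁻¹ * (g * n * g⁻¹ * n⁻¹)⁻¹ * n⁻¹⁻¹ := by group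
        rw [e]
        exact ‹R.Normal›.conj_mem _ (inv_mem (h1 g hg)) n⁻¹ }
  have c1 : ∀ n ∈ N, n ∉ centralizer (R : Set G) → n ∈ W := by
    intro n hn hnR
    have hnN : n ∉ centralizer (N : Set G) := fun h0 => hnR (centralizer_le hR h0)
    have hTN : D N n ⊔ R ≤ N := sup_le inf_le_left hR
    have hinv : ∀ m ∈ centralizer ({n} : Set G), ∀ t ∈ D N n ⊔ R, m * t * m⁻¹ ∈ D N n ⊔ R := by
      intro m hm t ht
      obtain ⟨d, hd, r, hr, rfl⟩ := mem_sup_of_normal_right.1 ht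
      have e : m * (d * r) * m⁻¹ = (m * d * m⁻¹) * (m * r * m⁻¹) := by group
      rw [e]
      refine mul_mem (mem_sup_left ?_) (mem_sup_right (‹R.Normal›.conj_mem _ hr m))
      exact mem_inf.2 ⟨‹N.Normal›.conj_mem _ (mem_inf.1 hd).1 m,
        mul_mem (mul_mem hm (mem_inf.1 hd).2) (inv_mem hm)⟩
    rcases maxInv N h hn hnN (D N n ⊔ R) hTN le_sup_left hinv with hT | hT
    · exfalso
      apply hnR
      have hRD : R ≤ D N n := by
        calc R ≤ D N n ⊔ R := le_sup_right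
          _ = D N n := hT
      rw [mem_centralizer_iff]
      intro r hr
      have := (mem_inf.1 (hRD hr)).2
      rw [mem_centralizer_singleton_iff] at this
      exact this
    · refine ⟨hn, fun g hg => ?_⟩
      have hg' : g ∈ D N n ⊔ R := by rw [hT]; exact hg
      obtain ⟨d, hd, r, hr, rfl⟩ := mem_sup_of_normal_right.1 hg'
      have hdn := (mem_inf.1 hd).2
      rw [mem_centralizer_singleton_iff] at hdn
      have hdn' : d⁻¹ * n⁻¹ = n⁻¹ * d⁻¹ := by
        rw [← mul_inv_rev, ← mul_inv_rev, hdn]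
      have e : d * r * n * (d * r)⁻¹ * n⁻¹ = d * (r * (n * r⁻¹ * n⁻¹)) * d⁻¹ := by
        calc d * r * n * (d * r)⁻¹ * n⁻¹ = d * r * n * r⁻¹ * (d⁻¹ * n⁻¹) := by group
          _ = d * r * n * r⁻¹ * (n⁻¹ * d⁻¹) := by rw [hdn']
          _ = _ := by group
      rw [e]
      exact ‹R.Normal›.conj_mem _ (mul_mem hr (‹R.Normal›.conj_mem _ (inv_mem hr) n)) d
  have hex : ∃ n0 ∈ N, n0 ∉ centralizer (R : Set G) := by
    by_contra hno
    push Not at hno
    exact hR' (le_centralizer_iff.1 (fun n hn => hno n hn))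
  obtain ⟨n0, hn0, hn0R⟩ := hex
  have hNW : N ≤ W := by
    intro n hn
    by_cases hnR : n ∈ centralizer (R : Set G)
    · have h1 : n * n0 ∉ centralizer (R : Set G) := by
        intro h2
        apply hn0R
        have : n0 = n⁻¹ * (n * n0) := by group
        rw [this]
        exact mul_mem (inv_mem hnR) h2
      have h3 := c1 _ (mul_mem hn hn0) h1
      have h4 := c1 _ hn0 hn0R
      have : n = (n * n0) * n0⁻¹ := by group
      rw [this]
      exact mul_mem h3 (inv_mem h4)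
    · exact c1 n hn hnR
  rw [commutator_le]
  intro g hg n hn
  rw [commutatorElement_def]
  exact (hNW hn).2 g hg

end Cfsg.Agent.Lib.H99Mc
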