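import Cfsg.Agent.Lib.H99McDefs
import Cfsg.Agent.Lib.H99McCommLe

set_option autoImplicit false
set_option linter.unusedSectionVars false
set_option linter.unusedVariables false

namespace Cfsg.Agent.Lib.H99Mc

open Subgroup

/-- by `commLe`: otherwise `⁅N,N⁆ ≤ R ≤ D N x`, so `x ∈ KK N`. -/
theorem core {G : Type*} [Group G] (N : Subgroup G) [N.Normal] (h : Hyp N) {x : G} (hx : x ∈ N) (hx' : x ∉ KK N)
    (R : Subgroup G) [R.Normal] (hR : R ≤ D N x) : R ≤ centralizer (N : Set G) := by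
  by_contra hR'
  have h1 : ⁅N, N⁆ ≤ R := commLe N h R (hR.trans inf_le_left) hR'
  apply hx'
  refine ⟨hx, ?_⟩
  show x ∈ centralizer ((⁅N, N⁆ : Subgroup G) : Set G)
  rw [mem_centralizer_iff]
  intro c hc
  have h2 : c ∈ centralizer ({x} : Set G) := (hR (h1 hc)).2
  rw [mem_centralizer_iff] at h2
  exact (h2 x rfl).symm

end Cfsg.Agent.Lib.H99Mc
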