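import Cfsg.Agent.Lib.H99McDefs
import Cfsg.Agent.Lib.H99McMaxInv
import Cfsg.Agent.Lib.H99McCommLe

set_option autoImplicit false
set_option linter.unusedSectionVars false
set_option linter.unusedVariables false

namespace Cfsg.Agent.Lib.H99Mc

open Subgroup
open scoped commutatorElement

/-- F3. `M = C_G(x)`, `D = D N x`. `T = N ⊓ normalizer D` (finite: `g D g⁻¹ ⊆ D → g ∈ normalizer`) is `M`-invariant, so by `maxInv`
`T = D` (done) or `T = N`. In the latter case `D` is normalized by `N` and `M`, `M ⊔ N = ⊤` (coatom, `N ≰ M`), so `D` is normal in `G`;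
`x ∈ D`, `x ∉ C(N)`, so `⁅N,N⁆ ≤ D` by `commLe`. For `n ∈ N \ D`: `n ∉ C(N)`, `G = C_G(n) N`; for `g = c k`:
`g n g⁻¹ n⁻¹ = c (k n k⁻¹ n⁻¹) c⁻¹ ∈ D`. So `{n ∈ N | ∀ g, g n g⁻¹ n⁻¹ ∈ D}` is a subgroup containing `N \ D`, hence `= N`.
So for `n ∈ N`, `m ∈ M`: `n m n⁻¹ = (n m n⁻¹ m⁻¹) m ∈ D M = M`: `N` and `M` normalize `M`, `M` normal: contradiction. -/
theorem selfNorm {G : Type*} [Group G] [Finite G] (N : Subgroup G) [N.Normal] (h : Hyp N) {x : G} (hx : x ∈ N)
    (hx' : x ∉ centralizer (N : Set G)) (hnn : ¬ (centralizer ({x} : Set G)).Normal) : SN N x := by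
  classical
  obtain ⟨M, hM⟩ : ∃ M : Subgroup G, M = centralizer ({x} : Set G) := ⟨_, rfl⟩
  have hco : IsCoatom M := hM ▸ h x hx hx'
  have hmemM : ∀ y : G, y ∈ M ↔ x * y = y * x := by
    intro y
    rw [hM, Subgroup.mem_centralizer_iff]
    constructor
    · intro hy; exact hy x rfl
    · intro hy z hz
      rw [Set.mem_singleton_iff] at hz
      rw [hz]; exact hy
  have hDdef : D N x = N ⊓ M := by rw [hM]; rfl
  have hNM : ¬ N ≤ M := by
    intro hle
    apply hx'
    rw [Subgroup.mem_centralizer_iff]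
    intro n hn
    exact ((hmemM n).1 (hle hn)).symm
  have hsup : M ⊔ N = ⊤ := by
    rcases eq_or_ne (M ⊔ N) ⊤ with h1 | h1
    · exact h1
    · exfalso
      have h2 : M ⊔ N = M := by
        by_contra hne
        exact h1 (hco.2 _ (lt_of_le_of_ne le_sup_left (Ne.symm hne)))
      exact hNM (h2 ▸ le_sup_right)
  have hMnor : M ≤ normalizer ((D N x : Subgroup G) : Set G) := by
    intro m hm
    rw [Subgroup.mem_normalizer_iff]
    intro d
    rw [hDdef]
    constructor
    · rintro ⟨h1, h2⟩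
      exact ⟨‹N.Normal›.conj_mem d h1 m, M.mul_mem (M.mul_mem hm h2) (M.inv_mem hm)⟩
    · rintro ⟨h1, h2⟩
      constructor
      · have := ‹N.Normal›.conj_mem _ h1 m⁻¹
        simpa [mul_assoc] using this
      · have := M.mul_mem (M.mul_mem (M.inv_mem hm) h2) hm
        simpa [mul_assoc] using this
  intro g hg hgD
  have hgn : g ∈ normalizer ((D N x : Subgroup G) : Set G) := by
    rw [Subgroup.mem_normalizer_iff]
    intro d
    constructor
    · exact hgD d
    · intro hd
      let f : D N x → D N x := fun d => ⟨g * d * g⁻¹, hgD d d.2⟩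
      have hf : Function.Injective f := by
        intro a b hab
        have := congrArg Subtype.val hab
        simp only [f] at this
        apply Subtype.ext
        exact mul_left_cancel (mul_right_cancel this)
      obtain ⟨e, he⟩ := (Finite.injective_iff_surjective.1 hf) ⟨g * d * g⁻¹, hd⟩
      have := congrArg Subtype.val he
      simp only [f] at this
      have h3 : (e : G) = d := mul_left_cancel (mul_right_cancel this)
      rw [← h3]; exact e.2
  have hT := maxInv N h hx hx' (N ⊓ normalizer ((D N x : Subgroup G) : Set G)) inf_le_left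
    (le_inf inf_le_left Subgroup.le_normalizer) (by
      intro m hm t ht
      have hm' : m ∈ M := hM ▸ hm
      exact ⟨‹N.Normal›.conj_mem t ht.1 m,
        Subgroup.mul_mem _ (Subgroup.mul_mem _ (hMnor hm') ht.2) (Subgroup.inv_mem _ (hMnor hm'))⟩)
  rcases hT with hT | hT
  · rw [← hT]; exact ⟨hg, hgn⟩
  exfalso
  have hNnor : N ≤ normalizer ((D N x : Subgroup G) : Set G) := by
    intro n hn
    have : n ∈ N ⊓ normalizer ((D N x : Subgroup G) : Set G) := by rw [hT]; exact hn
    exact this.2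
  have hDn : (D N x).Normal := by
    rw [← Subgroup.normalizer_eq_top_iff, eq_top_iff, ← hsup]
    exact sup_le hMnor hNnor
  have hxD : x ∈ D N x := by
    rw [hDdef]; exact ⟨hx, (hmemM x).2 rfl⟩
  have hcomm : ⁅N, N⁆ ≤ D N x := commLe N h (D N x) inf_le_left (fun hle => hx' (hle hxD))
  -- the subgroup `W`
  let π := QuotientGroup.mk' (D N x)
  let W : Subgroup G := N ⊓ (Subgroup.center (G ⧸ D N x)).comap π
  have hW1 : ∀ n ∈ N, n ∉ D N x → n ∈ W := by
    intro n hn hnD
    have hnC : n ∉ centralizer (N : Set G) := by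
      intro hc
      apply hnD
      rw [hDdef]
      refine ⟨hn, (hmemM n).2 ?_⟩
      rw [Subgroup.mem_centralizer_iff] at hc
      exact hc x hx
    have hco' : IsCoatom (centralizer ({n} : Set G)) := h n hn hnC
    have hN' : ¬ N ≤ centralizer ({n} : Set G) := by
      intro hle
      apply hnC
      rw [Subgroup.mem_centralizer_iff]
      intro k hk
      have := hle hk
      rw [Subgroup.mem_centralizer_iff] at this
      exact (this n rfl).symm
    have hsup' : centralizer ({n} : Set G) ⊔ N = ⊤ := by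
      rcases eq_or_ne (centralizer ({n} : Set G) ⊔ N) ⊤ with h1 | h1
      · exact h1
      · exfalso
        have h2 : centralizer ({n} : Set G) ⊔ N = centralizer ({n} : Set G) := by
          by_contra hne
          exact h1 (hco'.2 _ (lt_of_le_of_ne le_sup_left (Ne.symm hne)))
        exact hN' (h2 ▸ le_sup_right)
    refine ⟨hn, ?_⟩
    change π n ∈ Subgroup.center (G ⧸ D N x)
    rw [Subgroup.mem_center_iff]
    intro y
    obtain ⟨g, rfl⟩ := QuotientGroup.mk'_surjective (D N x) y
    have hgt : g ∈ centralizer ({n} : Set G) ⊔ N := by rw [hsup']; trivial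
    have hgt' : g ∈ ((centralizer ({n} : Set G) ⊔ N : Subgroup G) : Set G) := hgt
    rw [Subgroup.mul_normal] at hgt'
    obtain ⟨c, hc, k, hk, rfl⟩ := hgt'
    have hc : c ∈ centralizer ({n} : Set G) := hc
    have hk : k ∈ N := hk
    rw [Subgroup.mem_centralizer_iff] at hc
    have hcn : n * c = c * n := hc n rfl
    rw [← map_mul, ← map_mul]
    change ((c * k * n : G) : G ⧸ D N x) = ((n * (c * k) : G) : G ⧸ D N x)
    rw [QuotientGroup.eq]
    apply hcomm
    have e : (c * k * n)⁻¹ * (n * (c * k)) = ⁅n⁻¹, k⁻¹⁆ := by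
      rw [commutatorElement_def]
      have : n * (c * k) = c * (n * k) := by rw [← mul_assoc, hcn, mul_assoc]
      rw [this]
      group
    rw [e]
    exact Subgroup.commutator_mem_commutator (N.inv_mem hn) (N.inv_mem hk)
  have hNW : N ≤ W := by
    obtain ⟨n₀, hn₀, hn₀M⟩ := SetLike.not_le_iff_exists.1 hNM
    have hn₀D : n₀ ∉ D N x := fun hh => hn₀M (hDdef ▸ hh).2
    intro d hd
    by_cases hdD : d ∈ D N x
    · have h1 : d * n₀ ∈ W := hW1 _ (N.mul_mem hd hn₀) (fun hh => hn₀D (by
        have := (D N x).mul_mem ((D N x).inv_mem hdD) hh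
        simpa using this))
      have h2 := W.mul_mem h1 (W.inv_mem (hW1 n₀ hn₀ hn₀D))
      simpa using h2
    · exact hW1 d hd hdD
  apply hnn
  rw [← hM]
  refine ⟨fun m hm g => ?_⟩
  have hgt : g ∈ M ⊔ N := by rw [hsup]; trivial
  have hgt' : g ∈ ((M ⊔ N : Subgroup G) : Set G) := hgt
  rw [Subgroup.mul_normal] at hgt'
  obtain ⟨m', hm', n, hn, rfl⟩ := hgt'
  have hm' : m' ∈ M := hm'
  have hn : n ∈ N := hn
  have h1 : n * m * n⁻¹ ∈ M := by
    have hc : π n ∈ Subgroup.center (G ⧸ D N x) := (hNW hn).2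
    rw [Subgroup.mem_center_iff] at hc
    have h2 := hc (π m)
    rw [← map_mul, ← map_mul] at h2
    change ((m * n : G) : G ⧸ D N x) = ((n * m : G) : G ⧸ D N x) at h2
    rw [QuotientGroup.eq] at h2
    have h5 : n * ((m * n)⁻¹ * (n * m)) * n⁻¹ ∈ D N x := hDn.conj_mem _ h2 n
    have h3 : n * ((m * n)⁻¹ * (n * m)) * n⁻¹ ∈ M := (hDdef ▸ h5).2
    have h4 : n * m * n⁻¹ = m * (n * ((m * n)⁻¹ * (n * m)) * n⁻¹) := by group
    rw [h4]
    exact M.mul_mem hm h3
  have e : m' * n * m * (m' * n)⁻¹ = m' * (n * m * n⁻¹) * m'⁻¹ := by group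
  rw [e]
  exact M.mul_mem (M.mul_mem hm' h1) (M.inv_mem hm')

end Cfsg.Agent.Lib.H99Mc
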