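import Cfsg.Agent.Lib.H99McDefs
import Cfsg.Agent.Lib.H99McSelfNorm

set_option autoImplicit false
set_option linter.unusedSectionVars false
set_option linter.unusedVariables false

namespace Cfsg.Agent.Lib.H99Mc

open Subgroup

/-- `⁅N,N⁆ ≤ D N y` so `N` normalizes `D N y`; `SN N y` would give `N ≤ D N y`, `y ∈ C(N)`. So by `selfNorm` (contrapositive) normal. -/
theorem inK {G : Type*} [Group G] [Finite G] (N : Subgroup G) [N.Normal] (h : Hyp N) {y : G} (hy : y ∈ KK N)
    (hy' : y ∉ centralizer (N : Set G)) : (centralizer ({y} : Set G)).Normal := by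
  by_contra hnn
  have hs : SN N y := selfNorm N h hy.1 hy' hnn
  have hcomm : ⁅N, N⁆ ≤ D N y := by
    intro c hc
    refine ⟨Subgroup.commutator_le_left N N hc, ?_⟩
    show c ∈ centralizer ({y} : Set G)
    rw [mem_centralizer_iff]
    intro z hz
    rw [Set.mem_singleton_iff] at hz
    rw [hz]
    have h2 : y ∈ centralizer ((⁅N, N⁆ : Subgroup G) : Set G) := hy.2
    rw [mem_centralizer_iff] at h2
    exact (h2 c hc).symm
  apply hy'
  rw [mem_centralizer_iff]
  intro g hg
  have hgD : g ∈ D N y := by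
    apply hs g hg
    intro d hd
    have h3 : g * d * g⁻¹ * d⁻¹ ∈ D N y := hcomm (Subgroup.commutator_mem_commutator hg hd.1)
    have h4 := mul_mem h3 hd
    simpa using h4
  have h5 : g ∈ centralizer ({y} : Set G) := hgD.2
  rw [mem_centralizer_iff] at h5
  exact (h5 y rfl).symm

end Cfsg.Agent.Lib.H99Mc
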