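import Cfsg.Agent.Lib.H99McDefs
import Cfsg.Agent.Lib.H99McCore
import Cfsg.Agent.Lib.H99McInK

set_option autoImplicit false
set_option linter.unusedSectionVars false
set_option linter.unusedVariables false

namespace Cfsg.Agent.Lib.H99Mc

open Subgroup

/-- F4. If `y ∉ C(N)`: `M = C_G(y)` is normal (`inK`), `x ∈ M`. `R = normalClosure {y} ≤ N`; each `g y g⁻¹` is centralized by `g M g⁻¹ = M ∋ x`,
so `R ≤ D N x`, so `R ≤ C(N)` by `core`, `y ∈ C(N)`. -/
theorem cKx {G : Type*} [Group G] [Finite G] (N : Subgroup G) [N.Normal] (h : Hyp N) {x y : G} (hx : x ∈ N) (hx' : x ∉ KK N)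
    (hy : y ∈ KK N) (hxy : x * y = y * x) : y ∈ centralizer (N : Set G) := by
  by_contra hyc
  have hM : (centralizer ({y} : Set G)).Normal := inK N h hy hyc
  have hyN : y ∈ N := hy.1
  have hR : normalClosure ({y} : Set G) ≤ D N x := by
    unfold normalClosure
    rw [closure_le]
    intro z hz
    rw [Group.mem_conjugatesOfSet_iff] at hz
    obtain ⟨b, hb, hbz⟩ := hz
    rw [Set.mem_singleton_iff] at hb
    subst hb
    obtain ⟨g, rfl⟩ := isConj_iff.1 hbz
    refine ⟨(inferInstance : N.Normal).conj_mem _ hyN g, ?_⟩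
    show g * b * g⁻¹ ∈ centralizer ({x} : Set G)
    rw [mem_centralizer_singleton_iff]
    have hxM : x ∈ centralizer ({b} : Set G) := mem_centralizer_singleton_iff.2 hxy
    have h1 := hM.conj_mem _ hxM g⁻¹
    rw [inv_inv, mem_centralizer_singleton_iff] at h1
    calc g * b * g⁻¹ * x = g * (b * (g⁻¹ * x * g)) * g⁻¹ := by group
      _ = g * ((g⁻¹ * x * g) * b) * g⁻¹ := by rw [h1]
      _ = x * (g * b * g⁻¹) := by group
  exact hyc (core N h hx hx' (normalClosure ({y} : Set G)) hR (subset_normalClosure (Set.mem_singleton y)))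

end Cfsg.Agent.Lib.H99Mc
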