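import Cfsg.Agent.Lib.H99McDefs

set_option autoImplicit false
set_option linter.unusedSectionVars false
set_option linter.unusedVariables false

namespace Cfsg.Agent.Lib.H99Mc

open Subgroup
open scoped commutatorElement

/-- class 2: `⁅x^q, n⁆ = ⁅x,n⁆^q = ⁅x, n^q⁆` and `n^q ∈ D N x` (`D N x ⊇ ⁅N,N⁆`-ish is normal in `N` of index `q`). -/
theorem classTwoPow {G : Type*} [Group G] [Finite G] (N : Subgroup G) (hc : ⁅N, N⁆ ≤ centralizer (N : Set G)) {x : G} (hx : x ∈ N) :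
    x ^ ((D N x).relIndex N) ∈ centralizer (N : Set G) := by
  have hcen : ∀ a b c : N, (a * b * a⁻¹ * b⁻¹) * c = c * (a * b * a⁻¹ * b⁻¹) := by
    intro a b c
    have h1 : ⁅(a : G), (b : G)⁆ ∈ ⁅N, N⁆ := commutator_mem_commutator a.2 b.2
    have h2 := hc h1
    rw [mem_centralizer_iff] at h2
    have h3 := h2 c c.2
    rw [commutatorElement_def] at h3
    apply Subtype.ext
    exact h3.symm
  let φ : N → (N →* N) := fun u =>
    { toFun := fun n => u * n * u⁻¹ * n⁻¹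
      map_one' := by simp
      map_mul' := by
        intro a b
        calc u * (a * b) * u⁻¹ * (a * b)⁻¹ = u * a * u⁻¹ * ((u * b * u⁻¹ * b⁻¹) * a⁻¹) := by group
          _ = u * a * u⁻¹ * (a⁻¹ * (u * b * u⁻¹ * b⁻¹)) := by rw [hcen u b a⁻¹]
          _ = (u * a * u⁻¹ * a⁻¹) * (u * b * u⁻¹ * b⁻¹) := by group }
  have hφ : ∀ u n : N, φ u n = u * n * u⁻¹ * n⁻¹ := fun u n => rfl
  set k := (D N x).relIndex N with hk
  have hker : (φ ⟨x, hx⟩).ker = (D N x).subgroupOf N := by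
    ext n
    rw [MonoidHom.mem_ker, mem_subgroupOf, hφ]
    unfold D
    rw [mem_inf, mem_centralizer_singleton_iff, mul_inv_eq_one, mul_inv_eq_iff_eq_mul]
    constructor
    · intro h
      exact ⟨n.2, (congrArg Subtype.val h).symm⟩
    · intro h
      exact Subtype.ext h.2.symm
  have hpow : ∀ n : N, (φ ⟨x, hx⟩ n) ^ k = 1 := by
    intro n
    have h1 : Nat.card (φ ⟨x, hx⟩).range = k := by
      rw [← Subgroup.index_ker, hker]
      rfl
    have h2 : (⟨φ ⟨x, hx⟩ n, n, rfl⟩ : (φ ⟨x, hx⟩).range) ^ k = 1 := by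
      rw [← h1]
      exact pow_card_eq_one'
    have h3 := congrArg Subtype.val h2
    simpa using h3
  rw [mem_centralizer_iff]
  intro n hn
  have h3 : φ ⟨n, hn⟩ ((⟨x, hx⟩ : N) ^ k) = 1 := by
    rw [map_pow]
    have e : φ ⟨n, hn⟩ ⟨x, hx⟩ = (φ ⟨x, hx⟩ ⟨n, hn⟩)⁻¹ := by
      rw [hφ, hφ]
      group
    rw [e, inv_pow, hpow, inv_one]
  rw [hφ, mul_inv_eq_one, mul_inv_eq_iff_eq_mul] at h3
  have h4 := congrArg Subtype.val h3
  simpa using h4

end Cfsg.Agent.Lib.H99Mc
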