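import Cfsg.Agent.Lib.H99McDefs
import Cfsg.Agent.Lib.H99McClassTwoPow

set_option autoImplicit false
set_option linter.unusedSectionVars false
set_option linter.unusedVariables false

namespace Cfsg.Agent.Lib.H99Mc

open Subgroup

/-- in class 2: `x^k n x^{-k} = a^k n` where `a = x n x⁻¹ n⁻¹`. -/
theorem classTwoPrime_aux {G : Type*} [Group G] (N : Subgroup G) (hc : ⁅N, N⁆ ≤ centralizer (N : Set G)) {x n : G} (hx : x ∈ N)
    (hn : n ∈ N) (k : ℕ) : x ^ k * n * (x ^ k)⁻¹ = (x * n * x⁻¹ * n⁻¹) ^ k * n := by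
  have ha : x * n * x⁻¹ * n⁻¹ ∈ centralizer (N : Set G) := hc (Subgroup.commutator_mem_commutator hx hn)
  induction k with
  | zero => simp
  | succ k ih =>
    have h1 : x ^ (k + 1) * n * (x ^ (k + 1))⁻¹ = x * (x ^ k * n * (x ^ k)⁻¹) * x⁻¹ := by
      rw [pow_succ']; group
    rw [h1, ih]
    have h2 : x * (x * n * x⁻¹ * n⁻¹) ^ k = (x * n * x⁻¹ * n⁻¹) ^ k * x :=
      (Subgroup.mem_centralizer_iff.1 (Subgroup.pow_mem _ ha k) x hx)
    calc x * ((x * n * x⁻¹ * n⁻¹) ^ k * n) * x⁻¹
        = (x * (x * n * x⁻¹ * n⁻¹) ^ k) * n * x⁻¹ := by group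
      _ = (x * n * x⁻¹ * n⁻¹) ^ k * x * n * x⁻¹ := by rw [h2]
      _ = (x * n * x⁻¹ * n⁻¹) ^ k * (x * n * x⁻¹ * n⁻¹) * n := by group
      _ = (x * n * x⁻¹ * n⁻¹) ^ (k + 1) * n := by rw [pow_succ]

theorem classTwoPrime_pow {G : Type*} [Group G] [Finite G] (N : Subgroup G) (hc : ⁅N, N⁆ ≤ centralizer (N : Set G)) {x n : G}
    (hx : x ∈ N) (hn : n ∈ N) : (x * n * x⁻¹ * n⁻¹) ^ ((D N x).relIndex N) = 1 := by
  have h1 := classTwoPrime_aux N hc hx hn ((D N x).relIndex N)
  have h2 := Subgroup.mem_centralizer_iff.1 (classTwoPow N hc hx) n hn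
  have h3 : x ^ ((D N x).relIndex N) * n * (x ^ ((D N x).relIndex N))⁻¹ = n := by
    rw [← h2]; group
  rw [h3] at h1
  exact (mul_eq_right.1 h1.symm)

/-- class 2. `D N (x*y) = D N x ⊓ D N y`: if `n ∈ N` commutes with `x*y` then `⁅x,n⁆ * ⁅y,n⁆ = 1`, `⁅x,n⁆^p = 1`, `⁅y,n⁆^q = 1` so both are `1`.
The intersection of subgroups of coprime relative indices `p`, `q` has relative index `p*q`. -/
theorem classTwoPrime {G : Type*} [Group G] [Finite G] (N : Subgroup G) (hc : ⁅N, N⁆ ≤ centralizer (N : Set G)) {x y : G} (hx : x ∈ N)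
    (hy : y ∈ N) {p q : ℕ} (hp : p.Prime) (hq : q.Prime) (hpq : p ≠ q) (h1 : (D N x).relIndex N = p) (h2 : (D N y).relIndex N = q) :
    (D N (x * y)).relIndex N = p * q := by
  have hcop : Nat.Coprime p q := (Nat.coprime_primes hp hq).2 hpq
  have hD : D N (x * y) = D N x ⊓ D N y := by
    apply le_antisymm
    · rintro n ⟨hn, hn2⟩
      have hn3 : (x * y) * n = n * (x * y) := (Subgroup.mem_centralizer_singleton_iff.1 hn2).symm
      set a := x * n * x⁻¹ * n⁻¹ with ha
      set b := y * n * y⁻¹ * n⁻¹ with hb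
      have hap : a ^ p = 1 := by rw [← h1]; exact classTwoPrime_pow N hc hx hn
      have hbq : b ^ q = 1 := by rw [← h2]; exact classTwoPrime_pow N hc hy hn
      have hbc : b ∈ centralizer (N : Set G) := hc (Subgroup.commutator_mem_commutator hy hn)
      have hbx : x * b = b * x := Subgroup.mem_centralizer_iff.1 hbc x hx
      have hab : b * a = 1 := by
        have e1 : x * y * n * (x * y)⁻¹ = n := by rw [hn3]; group
        have e2 : x * y * n * (x * y)⁻¹ = (x * b) * n * x⁻¹ := by rw [hb]; group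
        rw [hbx] at e2
        have e3 : b * x * n * x⁻¹ = b * a * n := by rw [ha]; group
        rw [e3, e1] at e2
        exact (mul_eq_right.1 e2.symm)
      have haq : a ^ q = 1 := by
        have : a = b⁻¹ := (eq_inv_of_mul_eq_one_right hab)
        rw [this, inv_pow, hbq, inv_one]
      have ha1 : a = 1 := by
        have d1 := orderOf_dvd_of_pow_eq_one hap
        have d2 := orderOf_dvd_of_pow_eq_one haq
        have := Nat.dvd_gcd d1 d2
        rw [hcop.gcd_eq_one] at this
        exact orderOf_eq_one_iff.1 (Nat.dvd_one.1 this)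
      have hb1 : b = 1 := by rw [ha1, mul_one] at hab; exact hab
      refine ⟨⟨hn, ?_⟩, ⟨hn, ?_⟩⟩
      · show n ∈ centralizer ({x} : Set G)
        rw [Subgroup.mem_centralizer_singleton_iff]
        have : x * n * x⁻¹ * n⁻¹ = 1 := ha1
        have h5 : x * n = n * x := by
          have := congrArg (fun t => t * n * x) this
          simpa [mul_assoc] using this
        exact h5.symm
      · show n ∈ centralizer ({y} : Set G)
        rw [Subgroup.mem_centralizer_singleton_iff]
        have : y * n * y⁻¹ * n⁻¹ = 1 := hb1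
        have h5 : y * n = n * y := by
          have := congrArg (fun t => t * n * y) this
          simpa [mul_assoc] using this
        exact h5.symm
    · rintro n ⟨⟨hn, hnx⟩, ⟨-, hny⟩⟩
      refine ⟨hn, ?_⟩
      show n ∈ centralizer ({x * y} : Set G)
      have hnx : n ∈ centralizer ({x} : Set G) := hnx
      have hny : n ∈ centralizer ({y} : Set G) := hny
      rw [Subgroup.mem_centralizer_singleton_iff] at hnx hny ⊢
      rw [← mul_assoc, hnx, mul_assoc, hny, mul_assoc]
  rw [hD]
  have hle : (D N x ⊓ D N y).relIndex N ≤ p * q := by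
    have := Subgroup.relIndex_inf_le (H := D N x) (K := D N y) (L := N)
    rwa [h1, h2] at this
  have hdp : p ∣ (D N x ⊓ D N y).relIndex N := by
    rw [← h1]; exact Subgroup.relIndex_dvd_of_le_left N inf_le_left
  have hdq : q ∣ (D N x ⊓ D N y).relIndex N := by
    rw [← h2]; exact Subgroup.relIndex_dvd_of_le_left N inf_le_right
  have hd : p * q ∣ (D N x ⊓ D N y).relIndex N := hcop.mul_dvd_of_dvd_of_dvd hdp hdq
  have hne : (D N x ⊓ D N y).relIndex N ≠ 0 := by
    unfold Subgroup.relIndex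
    exact Subgroup.index_ne_zero_of_finite
  exact le_antisymm hle (Nat.le_of_dvd (Nat.pos_of_ne_zero hne) hd)

end Cfsg.Agent.Lib.H99Mc
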