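import Cfsg.Agent.Lib.H99McDefs

set_option autoImplicit false
set_option linter.unusedSectionVars false
set_option linter.unusedVariables false

namespace Cfsg.Agent.Lib.H99Mc

open Subgroup

/-- `M = C_G(x)` normal coatom: `G ⧸ M` has no proper nontrivial subgroup, so `M.index` is prime; `M ⊔ N = ⊤`, so
`(N ⊓ M).relIndex N = M.relIndex N = M.index` (`inf_relIndex_right`, `relIndex_sup_right`...). `G ⧸ M` abelian so `⁅N,N⁆ ≤ M`. -/
theorem normalCase {G : Type*} [Group G] [Finite G] (N : Subgroup G) [N.Normal] (h : Hyp N) {x : G} (hx : x ∈ N)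
    (hx' : x ∉ centralizer (N : Set G)) (hn : (centralizer ({x} : Set G)).Normal) :
    ((D N x).relIndex N).Prime ∧ ⁅N, N⁆ ≤ D N x := by
  classical
  set M : Subgroup G := centralizer ({x} : Set G) with hM
  have hco : IsCoatom M := h x hx hx'
  haveI : M.Normal := hn
  have hNM : ¬ N ≤ M := by
    intro hle
    apply hx'
    rw [mem_centralizer_iff]
    intro g hg
    have h3 : g ∈ centralizer ({x} : Set G) := hle hg
    exact ((mem_centralizer_iff.1 h3) x (Set.mem_singleton x)).symm
  have hsup : N ⊔ M = ⊤ := by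
    apply hco.2
    refine lt_of_le_of_ne le_sup_right ?_
    intro he
    apply hNM
    rw [he]
    exact le_sup_left
  -- index prime
  have hidx1 : M.index ≠ 1 := by
    intro h1
    exact hco.1 (Subgroup.index_eq_one.1 h1)
  obtain ⟨p, hp, hpd⟩ := Nat.exists_prime_and_dvd hidx1
  haveI : Fact p.Prime := ⟨hp⟩
  have hcard : Nat.card (G ⧸ M) = M.index := rfl
  obtain ⟨c, hc⟩ := exists_prime_orderOf_dvd_card' p (by rw [hcard]; exact hpd : p ∣ Nat.card (G ⧸ M))
  have hcomap : (Subgroup.zpowers c).comap (QuotientGroup.mk' M) = ⊤ := by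
    apply hco.2
    refine lt_of_le_of_ne ?_ ?_
    · intro m hm
      rw [Subgroup.mem_comap]
      have : QuotientGroup.mk' M m = 1 := (QuotientGroup.eq_one_iff m).2 hm
      rw [this]
      exact Subgroup.one_mem _
    · intro he
      obtain ⟨g, hg⟩ := QuotientGroup.mk'_surjective M c
      have h1 : g ∈ (Subgroup.zpowers c).comap (QuotientGroup.mk' M) := by
        rw [Subgroup.mem_comap, hg]
        exact Subgroup.mem_zpowers c
      rw [← he] at h1
      have h2 : c = 1 := by
        rw [← hg]
        exact (QuotientGroup.eq_one_iff g).2 h1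
      rw [h2, orderOf_one] at hc
      exact hp.one_lt.ne hc
  have hz : Subgroup.zpowers c = ⊤ := by
    rw [eq_top_iff]
    intro y _
    obtain ⟨g, rfl⟩ := QuotientGroup.mk'_surjective M y
    have : g ∈ (Subgroup.zpowers c).comap (QuotientGroup.mk' M) := by rw [hcomap]; trivial
    exact this
  have hidx : M.index = p := by
    rw [← hcard, ← Subgroup.card_top (G := G ⧸ M), ← hz, Nat.card_zpowers, hc]
  have hrel : (D N x).relIndex N = M.index := by
    have h1 : (D N x).relIndex N = M.relIndex N := Subgroup.inf_relIndex_left N M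
    rw [h1, ← Subgroup.relIndex_sup_right N M, hsup, Subgroup.relIndex_top_right]
  refine ⟨by rw [hrel, hidx]; exact hp, ?_⟩
  have hcyc : IsCyclic (G ⧸ M) := ⟨⟨c, fun y => by
    have : y ∈ Subgroup.zpowers c := by rw [hz]; trivial
    exact this⟩⟩
  refine le_inf (Subgroup.commutator_le_right N N) ?_
  rw [Subgroup.commutator_le]
  intro a _ b _
  rw [← QuotientGroup.eq_one_iff (N := M), commutatorElement_def]
  have hab : ((a : G) : G ⧸ M) * (b : G ⧸ M) = (b : G ⧸ M) * (a : G ⧸ M) := by
    letI := hcyc.commGroup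
    exact mul_comm _ _
  rw [QuotientGroup.mk_mul, QuotientGroup.mk_mul, QuotientGroup.mk_mul, QuotientGroup.mk_inv, QuotientGroup.mk_inv, hab]
  group

end Cfsg.Agent.Lib.H99Mc
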