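import Cfsg.Agent.Lib.H99McDefs
import Cfsg.Agent.Lib.H99McSelfNorm
import Cfsg.Agent.Lib.H99McNormalCase
import Cfsg.Agent.Lib.H99McClassTwoPow
import Cfsg.Agent.Lib.H99McClassTwoPrime

set_option autoImplicit false
set_option linter.unusedSectionVars false
set_option linter.unusedVariables false

namespace Cfsg.Agent.Lib.H99Mc

open Subgroup
open scoped commutatorElement

/-- For `x ∈ N \ C(N)`: `D N x` is normalized by `N` (`g d g⁻¹ = ⁅g,d⁆ d`, `⁅g,d⁆ ∈ N ⊓ C(N) ≤ D N x`), so `SN N x` would give `N ≤ D N x`, i.e. `x ∈ C(N)`;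
so by `selfNorm` `C_G(x)` is normal and by `normalCase` the relIndex is prime. Two different primes: `classTwoPrime` gives relIndex `p*q` for `x*y`
(not prime, not 1 so `x*y ∉ C(N)`): contradiction. Then `classTwoPow`. If `N ≤ C(N)` take `p = 2`. -/
theorem caseA {G : Type*} [Group G] [Finite G] (N : Subgroup G) [N.Normal] (h : Hyp N) (hc : ⁅N, N⁆ ≤ centralizer (N : Set G)) :
    ∃ p : ℕ, p.Prime ∧ ∀ x ∈ N, x ^ p ∈ centralizer (N : Set G) := by
  by_cases hab : N ≤ centralizer (N : Set G)
  · exact ⟨2, Nat.prime_two, fun x hx => hab (pow_mem hx 2)⟩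
  · obtain ⟨x0, hx0N, hx0⟩ := SetLike.not_le_iff_exists.1 hab
    have key : ∀ x ∈ N, x ∉ centralizer (N : Set G) → ((D N x).relIndex N).Prime := by
      intro x hx hx'
      have hn : (centralizer ({x} : Set G)).Normal := by
        by_contra hnn
        have hS := selfNorm N h hx hx' hnn
        apply hx'
        have hall : ∀ g ∈ N, g ∈ D N x := by
          intro g hg
          apply hS g hg
          intro d hd
          refine ⟨N.mul_mem (N.mul_mem hg hd.1) (N.inv_mem hg), ?_⟩
          show g * d * g⁻¹ ∈ centralizer ({x} : Set G)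
          rw [mem_centralizer_singleton_iff]
          have h1 : ⁅g, d⁆ ∈ centralizer (N : Set G) := hc (commutator_mem_commutator hg hd.1)
          have h2 := (mem_centralizer_iff.1 h1) x hx
          have h3 := mem_centralizer_singleton_iff.1 hd.2
          have e : g * d * g⁻¹ = ⁅g, d⁆ * d := by rw [commutatorElement_def]; group
          rw [e, mul_assoc, h3, ← mul_assoc, ← h2, mul_assoc]
        rw [mem_centralizer_iff]
        intro n hn
        exact mem_centralizer_singleton_iff.1 (hall n hn).2
      exact (normalCase N h hx hx' hn).1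
    have hp := key x0 hx0N hx0
    refine ⟨(D N x0).relIndex N, hp, ?_⟩
    intro y hy
    by_cases hyc : y ∈ centralizer (N : Set G)
    · exact pow_mem hyc _
    · have hq := key y hy hyc
      by_cases hpq : (D N x0).relIndex N = (D N y).relIndex N
      · rw [hpq]; exact classTwoPow N hc hy
      · exfalso
        have h3 := classTwoPrime N hc hx0N hy hp hq hpq rfl rfl
        by_cases hxy : x0 * y ∈ centralizer (N : Set G)
        · have hle : N ≤ D N (x0 * y) := fun n hn =>
            ⟨hn, mem_centralizer_singleton_iff.2 ((mem_centralizer_iff.1 hxy) n hn)⟩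
          have h4 : (D N (x0 * y)).relIndex N = 1 := relIndex_eq_one.2 hle
          rw [h4] at h3
          have := hp.two_le
          have := hq.two_le
          nlinarith
        · have h5 := key _ (N.mul_mem hx0N hy) hxy
          rw [h3] at h5
          exact Nat.not_prime_mul hp.one_lt.ne' hq.one_lt.ne' h5

end Cfsg.Agent.Lib.H99Mc
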