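import Cfsg.Agent.Lib.H99McDefs
import Cfsg.Agent.Lib.H99McDefs2

set_option autoImplicit false
set_option linter.unusedSectionVars false
set_option linter.unusedVariables false

namespace Cfsg.Agent.Lib.H99Mc

open Subgroup

/-- `mk n` commutes with `mk x` iff `n x n⁻¹ x⁻¹ ∈ Z(N)`; then `n` normalizes `C_N(x)` (`C_N(z x) = C_N(x)`), so `n ∈ D N x` by `SN`. -/
theorem centX {G : Type*} [Group G] (N : Subgroup G) (x : ↥N) (hsn : SN N (x : G)) (n : ↥N) :
    (QuotientGroup.mk n : ↥N ⧸ Subgroup.center ↥N) ∈ centralizer ({(QuotientGroup.mk x : ↥N ⧸ Subgroup.center ↥N)} : Set (↥N ⧸ Subgroup.center ↥N))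
      ↔ (n : G) ∈ D N (x : G) := by
  constructor
  · intro hmem
    rw [mem_centralizer_iff] at hmem
    have h1 := hmem _ (Set.mem_singleton _)
    rw [← QuotientGroup.mk_mul, ← QuotientGroup.mk_mul, QuotientGroup.eq] at h1
    obtain ⟨z, hz⟩ : ∃ z : ↥N, z = (x * n)⁻¹ * (n * x) := ⟨_, rfl⟩
    rw [← hz] at h1
    have hzc : ∀ g : ↥N, g * z = z * g := fun g => Subgroup.mem_center_iff.1 h1 g
    have hnz : n * z * n⁻¹ = z := by rw [hzc n]; group
    have hnx : n * x * n⁻¹ = x * z := by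
      rw [← hnz, hz]; group
    apply hsn n n.2
    intro d hd
    obtain ⟨hdN, hdc⟩ := mem_inf.1 hd
    refine mem_inf.2 ⟨N.mul_mem (N.mul_mem n.2 hdN) (N.inv_mem n.2), ?_⟩
    rw [mem_centralizer_iff] at hdc ⊢
    intro y hy
    rw [Set.mem_singleton_iff] at hy
    subst hy
    have hdx : x * (⟨d, hdN⟩ : ↥N) = ⟨d, hdN⟩ * x := Subtype.ext (hdc _ (Set.mem_singleton _))
    obtain ⟨d', hd'⟩ : ∃ d' : ↥N, d' = ⟨d, hdN⟩ := ⟨_, rfl⟩
    rw [← hd'] at hdx
    have h2 : n * d' * n⁻¹ * (x * z) = (x * z) * (n * d' * n⁻¹) := by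
      rw [← hnx]
      calc n * d' * n⁻¹ * (n * x * n⁻¹) = n * (d' * x) * n⁻¹ := by group
        _ = n * (x * d') * n⁻¹ := by rw [hdx]
        _ = (n * x * n⁻¹) * (n * d' * n⁻¹) := by group
    have h3 : n * d' * n⁻¹ * x = x * (n * d' * n⁻¹) := by
      have h4 : n * d' * n⁻¹ * x * z = x * (n * d' * n⁻¹) * z := by
        calc n * d' * n⁻¹ * x * z = n * d' * n⁻¹ * (x * z) := by rw [mul_assoc]
          _ = x * z * (n * d' * n⁻¹) := h2
          _ = x * (z * (n * d' * n⁻¹)) := by rw [mul_assoc]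
          _ = x * ((n * d' * n⁻¹) * z) := by rw [hzc (n * d' * n⁻¹)]
          _ = x * (n * d' * n⁻¹) * z := by rw [← mul_assoc x]
      exact mul_right_cancel h4
    have h5 := congrArg Subtype.val h3.symm
    rw [hd'] at h5
    exact h5
  · intro hn
    obtain ⟨_, hc⟩ := mem_inf.1 hn
    rw [mem_centralizer_iff] at hc ⊢
    have h1 : (x : G) * n = n * x := hc _ (Set.mem_singleton _)
    intro y hy
    rw [Set.mem_singleton_iff] at hy
    subst hy
    rw [← QuotientGroup.mk_mul, ← QuotientGroup.mk_mul]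
    congr 1
    exact Subtype.ext h1

end Cfsg.Agent.Lib.H99Mc
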