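import Cfsg.Agent.Lib.H99McDefs
import Cfsg.Agent.Lib.H99McDefs2

set_option autoImplicit false
set_option linter.unusedSectionVars false
set_option linter.unusedVariables false

namespace Cfsg.Agent.Lib.H99Mc

open Subgroup

theorem n3_aux (k : ℕ) : ∑ n ∈ Finset.Icc 2 (k + 2), (1 / (n : ℚ) ^ 2) < 1 - 1 / ((k : ℚ) + 2) := by
  induction k with
  | zero => norm_num [Finset.Icc_self]
  | succ k ih =>
    rw [show k + 1 + 2 = (k + 2) + 1 from rfl, Finset.sum_Icc_succ_top (by omega)]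
    have hk : (0 : ℚ) ≤ k := Nat.cast_nonneg k
    have h1 : (1 : ℚ) / (((k + 2 + 1 : ℕ) : ℚ)) ^ 2 < 1 / ((k : ℚ) + 2) - 1 / ((k : ℚ) + 3) := by
      push_cast
      rw [div_sub_div _ _ (by positivity) (by positivity), div_lt_div_iff₀ (by positivity) (by positivity)]
      nlinarith
    push_cast at h1 ⊢
    have e : (k : ℚ) + 1 + 2 = k + 3 := by ring
    rw [e]
    linarith

/-- PURE ARITHMETIC. In `ℚ`: `∑_{p ∣ m} 1/p² ≤ ∑_{n=2}^{m} 1/n² < ∑_{n=2}^m (1/(n-1) - 1/n) = 1 - 1/m`; `m / p^2 ≤ m * (1/p²)`. -/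
theorem n3 (m : ℕ) (hm : 2 ≤ m) : ∑ p ∈ m.primeFactors, m / p ^ 2 + 1 < m := by
  obtain ⟨k, rfl⟩ : ∃ k, m = k + 2 := ⟨m - 2, by omega⟩
  have hsub : (k + 2).primeFactors ⊆ Finset.Icc 2 (k + 2) := by
    intro p hp
    rw [Finset.mem_Icc]
    exact ⟨(Nat.prime_of_mem_primeFactors hp).two_le,
      Nat.le_of_dvd (by omega) (Nat.dvd_of_mem_primeFactors hp)⟩
  have h1 : ((∑ p ∈ (k + 2).primeFactors, (k + 2) / p ^ 2 : ℕ) : ℚ)
      ≤ ((k : ℚ) + 2) * ∑ n ∈ Finset.Icc 2 (k + 2), (1 / (n : ℚ) ^ 2) := by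
    rw [Nat.cast_sum, Finset.mul_sum]
    refine (Finset.sum_le_sum (fun p _ => ?_)).trans
      (Finset.sum_le_sum_of_subset_of_nonneg hsub (fun n _ _ => by positivity))
    have := @Nat.cast_div_le ℚ _ _ _ (k + 2) (p ^ 2)
    push_cast at this
    rw [mul_one_div]
    exact this
  have h2 := n3_aux k
  have hpos : (0 : ℚ) < (k : ℚ) + 2 := by positivity
  have h3 : ((k : ℚ) + 2) * ∑ n ∈ Finset.Icc 2 (k + 2), (1 / (n : ℚ) ^ 2) < (k : ℚ) + 1 := by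
    calc ((k : ℚ) + 2) * ∑ n ∈ Finset.Icc 2 (k + 2), (1 / (n : ℚ) ^ 2)
        < ((k : ℚ) + 2) * (1 - 1 / ((k : ℚ) + 2)) := mul_lt_mul_of_pos_left h2 hpos
      _ = (k : ℚ) + 1 := by field_simp; ring
  have h4 : ((∑ p ∈ (k + 2).primeFactors, (k + 2) / p ^ 2 : ℕ) : ℚ) < ((k + 1 : ℕ) : ℚ) := by
    push_cast
    push_cast at h1
    linarith
  have h5 := Nat.cast_lt.1 h4
  omega

end Cfsg.Agent.Lib.H99Mc
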