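import Cfsg.Agent.Lib.H99McDefs
import Cfsg.Agent.Lib.H99McDefs2

set_option autoImplicit false
set_option linter.unusedSectionVars false
set_option linter.unusedVariables false

namespace Cfsg.Agent.Lib.H99Mc

open Subgroup

/-- `card_sylow_eq_index_normalizer`, `S ≤ normalizer S`. -/
theorem n1 {X : Type*} [Group X] [Finite X] {p : ℕ} [Fact p.Prime] (S : Sylow p X) :
    Nat.card (Sylow p X) * Nat.card S ≤ Nat.card X := by
  rw [Sylow.card_eq_index_normalizer S,
    ← Subgroup.index_mul_card (normalizer ((S : Subgroup X) : Set X))]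
  exact Nat.mul_le_mul_left _ (Subgroup.card_le_of_le Subgroup.le_normalizer)

end Cfsg.Agent.Lib.H99Mc
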