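import Cfsg.Agent.Lib.H99McDefs
import Cfsg.Agent.Lib.H99McDefs2

set_option autoImplicit false
set_option linter.unusedSectionVars false
set_option linter.unusedVariables false

namespace Cfsg.Agent.Lib.H99Mc

open Subgroup

/-- `S / Z(S)` has order `p^j`; `j = 0`: abelian; `j = 1`: cyclic quotient by the centre, abelian (`commutative_of_cyclic_center_quotient`). The set below is (the image of) the centre of `S`. -/
theorem n2 {X : Type*} [Group X] [Finite X] {p : ℕ} [Fact p.Prime] (S : Sylow p X) (hS : ¬ (∀ a ∈ S, ∀ b ∈ S, a * b = b * a)) :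
    Nat.card {x : X // x ∈ S ∧ ∀ a ∈ S, a * x = x * a} * p ^ 2 ≤ Nat.card S := by
  have hp : p.Prime := Fact.out
  have e : {x : X // x ∈ S ∧ ∀ a ∈ S, a * x = x * a} ≃ center (S : Subgroup X) :=
    { toFun := fun x => ⟨⟨x.1, x.2.1⟩, by
        rw [Subgroup.mem_center_iff]
        intro a
        exact Subtype.ext (x.2.2 a a.2)⟩
      invFun := fun z => ⟨((z : (S : Subgroup X)) : X), (z : (S : Subgroup X)).2, fun a ha => by
        have := Subgroup.mem_center_iff.1 z.2 ⟨a, ha⟩
        exact congrArg Subtype.val this⟩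
      left_inv := fun x => rfl
      right_inv := fun z => rfl }
  rw [Nat.card_congr e, ← Subgroup.card_mul_index (center (S : Subgroup X))]
  apply Nat.mul_le_mul_left
  obtain ⟨n, hn⟩ := IsPGroup.iff_card.1 S.isPGroup'
  have hd : (center (S : Subgroup X)).index ∣ p ^ n := hn ▸ Subgroup.index_dvd_card _
  obtain ⟨j, -, hj⟩ := (Nat.dvd_prime_pow hp).1 hd
  rw [hj]
  apply Nat.pow_le_pow_right hp.pos
  by_contra hlt
  apply hS
  have hcomm : ∀ a b : (S : Subgroup X), a * b = b * a := by
    have hj1 : j = 0 ∨ j = 1 := by omega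
    rcases hj1 with rfl | rfl
    · rw [pow_zero, Subgroup.index_eq_one] at hj
      intro a b
      have : b ∈ center (S : Subgroup X) := by rw [hj]; exact Subgroup.mem_top b
      exact Subgroup.mem_center_iff.1 this a
    · rw [pow_one] at hj
      haveI : IsCyclic ((S : Subgroup X) ⧸ center (S : Subgroup X)) :=
        isCyclic_of_prime_card (p := p) hj
      exact commutative_of_cyclic_center_quotient (QuotientGroup.mk' (center (S : Subgroup X)))
        (by rw [QuotientGroup.ker_mk'])
  intro a ha b hb
  exact congrArg Subtype.val (hcomm ⟨a, ha⟩ ⟨b, hb⟩)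

end Cfsg.Agent.Lib.H99Mc
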