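import Cfsg.Agent.Lib.H99McDefs
import Cfsg.Agent.Lib.H99McDefs2
import Cfsg.Agent.Lib.H99McN1
import Cfsg.Agent.Lib.H99McN2

set_option autoImplicit false
set_option linter.unusedSectionVars false
set_option linter.unusedVariables false

namespace Cfsg.Agent.Lib.H99Mc

open Subgroup

/-- `x ∈ Ap X p` lies in the centre-set of the nonabelian Sylow subgroup `S_x = C(x)`. So `|Ap| ≤ ∑_{S nonabelian} |Z(S)|`, `|Z(S)| p² ≤ |S|` (`n2`), all `|S|` are equal, `n_p |S| ≤ |X|` (`n1`). -/
theorem n4 {X : Type*} [Group X] [Finite X] {p : ℕ} [Fact p.Prime] : Nat.card (Ap X p) * p ^ 2 ≤ Nat.card X := by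
  classical
  haveI : Fintype X := Fintype.ofFinite X
  haveI : Fintype (Sylow p X) := Fintype.ofFinite _
  obtain ⟨S0⟩ : Nonempty (Sylow p X) := inferInstance
  let F : X → Sylow p X := fun x => if h : x ∈ Ap X p then Classical.choose h.2 else S0
  have hF : ∀ x (h : x ∈ Ap X p), ((F x : Sylow p X) : Subgroup X) = centralizer ({x} : Set X) ∧
      ¬ (∀ a ∈ F x, ∀ b ∈ F x, a * b = b * a) := by
    intro x h
    have : F x = Classical.choose h.2 := dif_pos h
    rw [this]
    exact Classical.choose_spec h.2
  let A : Finset X := Finset.univ.filter (fun x => x ∈ Ap X p)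
  have hA : Nat.card (Ap X p) = A.card := by
    rw [Nat.card_eq_fintype_card]
    exact Fintype.card_subtype _
  have hsum : A.card = ∑ S : Sylow p X, (A.filter (fun x => F x = S)).card :=
    Finset.card_eq_sum_card_fiberwise (fun x _ => Finset.mem_univ _)
  have hfib : ∀ S : Sylow p X, (A.filter (fun x => F x = S)).card * p ^ 2 ≤ Nat.card S0 := by
    intro S
    by_cases hne : (A.filter (fun x => F x = S)).Nonempty
    · obtain ⟨x0, hx0⟩ := hne
      rw [Finset.mem_filter] at hx0
      have hx0A : x0 ∈ Ap X p := (Finset.mem_filter.1 hx0.1).2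
      have hnab : ¬ (∀ a ∈ S, ∀ b ∈ S, a * b = b * a) := hx0.2 ▸ (hF x0 hx0A).2
      have h2 := n2 S hnab
      have hcard : Nat.card {x : X // x ∈ S ∧ ∀ a ∈ S, a * x = x * a} =
          (Finset.univ.filter (fun x : X => x ∈ S ∧ ∀ a ∈ S, a * x = x * a)).card := by
        rw [Nat.card_eq_fintype_card]
        exact Fintype.card_subtype _
      have hsub : A.filter (fun x => F x = S) ⊆
          Finset.univ.filter (fun x : X => x ∈ S ∧ ∀ a ∈ S, a * x = x * a) := by
        intro x hx
        rw [Finset.mem_filter] at hx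
        have hxA : x ∈ Ap X p := (Finset.mem_filter.1 hx.1).2
        have hc : ((S : Sylow p X) : Subgroup X) = centralizer ({x} : Set X) := hx.2 ▸ (hF x hxA).1
        rw [Finset.mem_filter]
        refine ⟨Finset.mem_univ _, ?_, ?_⟩
        · show x ∈ (S : Subgroup X)
          rw [hc, mem_centralizer_singleton_iff]
        · intro a ha
          have ha' : a ∈ (S : Subgroup X) := ha
          rw [hc, mem_centralizer_singleton_iff] at ha'
          first
            | exact ha'
            | exact ha'.symm
      have hS : Nat.card S = Nat.card S0 := by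
        rw [Sylow.card_eq_multiplicity, Sylow.card_eq_multiplicity]
      calc (A.filter (fun x => F x = S)).card * p ^ 2
          ≤ (Finset.univ.filter (fun x : X => x ∈ S ∧ ∀ a ∈ S, a * x = x * a)).card * p ^ 2 :=
            Nat.mul_le_mul_right _ (Finset.card_le_card hsub)
        _ = Nat.card {x : X // x ∈ S ∧ ∀ a ∈ S, a * x = x * a} * p ^ 2 := by rw [hcard]
        _ ≤ Nat.card S := h2
        _ = Nat.card S0 := hS
    · rw [Finset.not_nonempty_iff_eq_empty] at hne
      rw [hne]
      simp
  calc Nat.card (Ap X p) * p ^ 2 = ∑ S : Sylow p X, (A.filter (fun x => F x = S)).card * p ^ 2 := by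
        rw [hA, hsum, Finset.sum_mul]
    _ ≤ ∑ _S : Sylow p X, Nat.card S0 := Finset.sum_le_sum (fun S _ => hfib S)
    _ = Nat.card (Sylow p X) * Nat.card S0 := by
        rw [Finset.sum_const, Finset.card_univ, smul_eq_mul]
        congr 1
        exact (Nat.card_eq_fintype_card).symm
    _ ≤ Nat.card X := n1 S0

end Cfsg.Agent.Lib.H99Mc
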