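import Cfsg.Agent.Lib.H99McDefs
import Cfsg.Agent.Lib.H99McDefs2
import Cfsg.Agent.Lib.H99McN3
import Cfsg.Agent.Lib.H99McN4

set_option autoImplicit false
set_option linter.unusedSectionVars false
set_option linter.unusedVariables false

namespace Cfsg.Agent.Lib.H99Mc

open Subgroup

/-- `m = |X| ≥ 2` otherwise. `X \ {1} ⊆ ⋃_{p ∈ primeFactors m} Ap X p`, so `m - 1 ≤ ∑ |Ap| ≤ ∑ m / p^2` (`n4`, `Nat.le_div_iff_mul_le`), contradiction with `n3`. -/
theorem cnt {X : Type*} [Group X] [Finite X] (h : ∀ x : X, x ≠ 1 → ∃ p ∈ (Nat.card X).primeFactors, x ∈ Ap X p) : Subsingleton X := by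
  classical
  by_contra hns
  rw [not_subsingleton_iff_nontrivial] at hns
  have hm : 2 ≤ Nat.card X := by
    have := Finite.one_lt_card (α := X)
    omega
  have h3 := n3 (Nat.card X) hm
  have hsub : ({1}ᶜ : Set X) ⊆ ⋃ p ∈ (Nat.card X).primeFactors, Ap X p := by
    intro x hx
    obtain ⟨p, hp, hxp⟩ := h x (by simpa using hx)
    exact Set.mem_biUnion hp hxp
  have h1 : ({1}ᶜ : Set X).ncard ≤ (⋃ p ∈ (Nat.card X).primeFactors, Ap X p).ncard :=
    Set.ncard_le_ncard hsub (Set.toFinite _)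
  have h2 : (⋃ p ∈ (Nat.card X).primeFactors, Ap X p).ncard
      ≤ ∑ p ∈ (Nat.card X).primeFactors, (Ap X p).ncard :=
    Finset.set_ncard_biUnion_le _ _
  have h4 : ∑ p ∈ (Nat.card X).primeFactors, (Ap X p).ncard
      ≤ ∑ p ∈ (Nat.card X).primeFactors, Nat.card X / p ^ 2 := by
    apply Finset.sum_le_sum
    intro p hp
    have : Fact p.Prime := ⟨Nat.prime_of_mem_primeFactors hp⟩
    have h5 := n4 (X := X) (p := p)
    rw [Nat.le_div_iff_mul_le (pow_pos (Nat.prime_of_mem_primeFactors hp).pos 2)]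
    rwa [Nat.card_coe_set_eq] at h5
  have h6 : ({1}ᶜ : Set X).ncard = Nat.card X - 1 := by
    rw [Set.ncard_compl, Set.ncard_singleton]
  omega

end Cfsg.Agent.Lib.H99Mc
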