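import Cfsg.Agent.Lib.H99McDefs
import Cfsg.Agent.Lib.H99McDefs2
import Cfsg.Agent.Lib.H99McMaxInv

set_option autoImplicit false
set_option linter.unusedSectionVars false
set_option linter.unusedVariables false

namespace Cfsg.Agent.Lib.H99Mc

open Subgroup

/-- `D N w ≤ D N x` clear (`z` central in `N`). `D N x` is `C_G(w)`-invariant; `maxInv` for `w`: `D N x = D N w` or `= N` (impossible, `x ∉ C(N)`). -/
theorem coprimeD {G : Type*} [Group G] (N : Subgroup G) [hN : N.Normal] (h : Hyp N) {x w z : G} (k : ℕ) (hx' : x ∉ centralizer (N : Set G))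
    (hw : w ∈ N) (hw' : w ∉ centralizer (N : Set G)) (hz : z ∈ N) (hz' : z ∈ centralizer (N : Set G)) (hxw : x = w ^ k * z) :
    D N x = D N w := by
  have hzc : ∀ n ∈ N, z * n = n * z := fun n hn => ((mem_centralizer_iff.mp hz') n hn).symm
  have hmemD : ∀ (y g : G), g ∈ D N y ↔ g ∈ N ∧ y * g = g * y := by
    intro y g
    unfold D
    rw [mem_inf, mem_centralizer_singleton_iff, eq_comm]
  have hD : D N w ≤ D N x := by
    intro d hd
    rw [hmemD] at hd ⊢
    refine ⟨hd.1, ?_⟩
    have h1 : Commute w d := hd.2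
    have h2 : Commute z d := hzc d hd.1
    rw [hxw]
    exact (h1.pow_left k).mul_left h2
  have hinv : ∀ m ∈ centralizer ({w} : Set G), ∀ t ∈ D N x, m * t * m⁻¹ ∈ D N x := by
    intro m hm t ht
    rw [mem_centralizer_singleton_iff] at hm
    rw [hmemD] at ht ⊢
    refine ⟨hN.conj_mem t ht.1 m, ?_⟩
    have hwm : Commute w m := hm.symm
    have hzt : Commute z t := hzc t ht.1
    have hxt : Commute (w ^ k * z) t := by rw [← hxw]; exact ht.2
    have hwt : Commute (w ^ k) t := by
      have e : w ^ k = (w ^ k * z) * z⁻¹ := by group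
      rw [e]
      exact hxt.mul_left hzt.inv_left
    have hz2 : Commute z (m * t * m⁻¹) := hzc _ (hN.conj_mem t ht.1 m)
    have hw2 : Commute (w ^ k) (m * t * m⁻¹) := by
      have hwkm : Commute (w ^ k) m := hwm.pow_left k
      exact (hwkm.mul_right hwt).mul_right hwkm.inv_right
    rw [hxw]
    exact hw2.mul_left hz2
  rcases maxInv N h hw hw' (D N x) inf_le_left hD hinv with h1 | h1
  · exact h1
  · exfalso
    apply hx'
    rw [mem_centralizer_iff]
    intro n hn
    have h2 : n ∈ D N x := by rw [h1]; exact hn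
    exact ((hmemD x n).mp h2).2.symm

end Cfsg.Agent.Lib.H99Mc
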