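import Mathlib
import Cfsg.Statements.S3905

set_option autoImplicit false
set_option linter.unusedSectionVars false
set_option linter.unusedVariables false

namespace Cfsg.Agent.Lib.H99Mc

open Subgroup

variable {G : Type*} [Group G]

/-- the hypothesis of S3905 -/
def Hyp (N : Subgroup G) : Prop :=
  ∀ x : G, x ∈ N → x ∉ centralizer (N : Set G) → IsCoatom (centralizer ({x} : Set G))

/-- `C_N(x)` -/
def D (N : Subgroup G) (x : G) : Subgroup G := N ⊓ centralizer ({x} : Set G)

/-- `D N x` is self-normalizing in `N` -/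
def SN (N : Subgroup G) (x : G) : Prop :=
  ∀ g ∈ N, (∀ d ∈ D N x, g * d * g⁻¹ ∈ D N x) → g ∈ D N x

/-- `K = C_N(N')` -/
def KK (N : Subgroup G) : Subgroup G := N ⊓ centralizer ((⁅N, N⁆ : Subgroup G) : Set G)

end Cfsg.Agent.Lib.H99Mc
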