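import Cfsg.Agent.Lib.H99McDefs

set_option autoImplicit false
set_option linter.unusedSectionVars false
set_option linter.unusedVariables false

namespace Cfsg.Agent.Lib.H99Mc

open Subgroup
open scoped Pointwise

theorem frobAbs_aux {X : Type*} [Group X] [Finite X] (Q I : Subgroup X) (hq : (Nat.card Q).Prime)
    (hle : I ≤ Q) (hI : I ≠ ⊥) : I = Q := by
  have hd : Nat.card I ∣ Nat.card Q := Subgroup.card_dvd_of_le hle
  rcases (Nat.dvd_prime hq).1 hd with h | h
  · exact absurd (Subgroup.eq_bot_of_card_eq I h) hI
  · exact Subgroup.eq_of_le_of_card_ge hle (by rw [h])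

/-- PURE GROUP THEORY. `|Q|` prime so `Q ⊓ gQg⁻¹` is `⊥` or `Q`; in the latter case `g ∈ normalizer Q = Q`. `Q ≠ ⊤` since `K ≠ ⊥`, `Q ⊓ K = ⊥`... (`|X| = |K| |Q|`).
Kernel: `K` normal and `Q ⊓ K = ⊥` so no `1 ≠ k ∈ K` lies in a conjugate of `Q`. Conversely the `|X:Q| = |K|` conjugates of `Q` meet pairwise trivially, so cover
`|K| (q-1) = |X| - |K|` nonidentity elements, all outside `K`: they cover `X \ K`. -/
theorem frobAbs {X : Type*} [Group X] [Finite X] (Q K : Subgroup X) [K.Normal] (hq : (Nat.card Q).Prime) (hi : K.index = Nat.card Q)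
    (hQK : Q ⊓ K = ⊥) (hK : K ≠ ⊥) (hn : ∀ g : X, (∀ a ∈ Q, g * a * g⁻¹ ∈ Q) → g ∈ Q) :
    Cfsg.IsFrobeniusComplement Q ∧ (K : Set X) = Cfsg.frobeniusKernel Q := by
  have hmemc : ∀ (g x : X), x ∈ MulAut.conj g • Q ↔ g⁻¹ * x * g ∈ Q := by
    intro g x
    rw [Subgroup.mem_pointwise_smul_iff_inv_smul_mem]
    simp [MulAut.smul_def, MulAut.conj_apply]
  have hQK1 : ∀ x, x ∈ Q → x ∈ K → x = 1 := by
    intro x h1 h2
    have : x ∈ Q ⊓ K := ⟨h1, h2⟩
    rw [hQK] at this
    exact Subgroup.mem_bot.1 this
  constructor
  · refine ⟨?_, ?_, ?_⟩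
    · intro h
      rw [h] at hq
      simp at hq
      exact Nat.not_prime_one hq
    · intro h
      rw [h, top_inf_eq] at hQK
      exact hK hQK
    · intro g hg
      by_contra hne
      have h1 : Q ⊓ (MulAut.conj g • Q) = Q := frobAbs_aux Q _ hq inf_le_left hne
      have h2 : Q ≤ MulAut.conj g • Q := by
        intro z hz
        have hz2 : z ∈ Q ⊓ (MulAut.conj g • Q) := by rw [h1]; exact hz
        exact hz2.2
      have h3 : Q = MulAut.conj g • Q := by
        apply Subgroup.eq_of_le_of_card_ge h2
        exact (Nat.card_congr (Subgroup.equivSMul (MulAut.conj g) Q).toEquiv).symm.le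
      apply hg
      apply hn
      intro a ha
      rw [h3, hmemc]
      simpa [mul_assoc] using ha
  · -- kernel
    have hsurj : ∀ x : X, ∃ a ∈ Q, a⁻¹ * x ∈ K := by
      let f : Q → X ⧸ K := fun a => QuotientGroup.mk (a : X)
      have hf : Function.Injective f := by
        intro a b hab
        have h1 : (a : X)⁻¹ * b ∈ K := QuotientGroup.eq.1 hab
        have h2 := hQK1 _ (mul_mem (inv_mem a.2) b.2) h1
        apply Subtype.ext
        exact (inv_mul_eq_one.1 h2)
      have hb : Function.Bijective f := by
        rw [Nat.bijective_iff_injective_and_card]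
        exact ⟨hf, by rw [← hi]; rfl⟩
      intro x
      obtain ⟨a, ha⟩ := hb.2 (QuotientGroup.mk x)
      exact ⟨a, a.2, QuotientGroup.eq.1 ha⟩
    ext x
    constructor
    · intro hx
      by_cases h1 : x = 1
      · exact Or.inl h1
      · right
        intro g hg
        rw [hmemc] at hg
        apply h1
        have h2 : g⁻¹ * x * g ∈ K := by
          have := (inferInstance : K.Normal).conj_mem x hx g⁻¹
          simpa using this
        have h3 := hQK1 _ hg h2
        have : x = g * (g⁻¹ * x * g) * g⁻¹ := by group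
        rw [this, h3]; group
    · intro hx
      by_contra hxK
      have hxK' : x ∉ K := hxK
      obtain ⟨a, ha, hak⟩ := hsurj x
      have ha1 : a ≠ 1 := by
        rintro rfl
        apply hxK'
        simpa using hak
      -- the map
      have hmapK : ∀ k : K, a⁻¹ * ((k : X) * a * (k : X)⁻¹) ∈ K := by
        intro k
        have h1 : a⁻¹ * (k : X) * a ∈ K := by
          have := (inferInstance : K.Normal).conj_mem (k : X) k.2 a⁻¹
          simpa using this
        have h2 := mul_mem h1 (inv_mem k.2)
        simpa [mul_assoc] using h2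
      let φ : K → K := fun k => ⟨_, hmapK k⟩
      have hφ : Function.Injective φ := by
        intro k k' hkk
        have h1 : a⁻¹ * ((k : X) * a * (k : X)⁻¹) = a⁻¹ * ((k' : X) * a * (k' : X)⁻¹) :=
          congrArg Subtype.val hkk
        have h2 : (k : X) * a * (k : X)⁻¹ = (k' : X) * a * (k' : X)⁻¹ := mul_left_cancel h1
        set c : X := (k' : X)⁻¹ * k with hc
        have hca : c * a * c⁻¹ = a := by
          have : c * a * c⁻¹ = (k' : X)⁻¹ * ((k : X) * a * (k : X)⁻¹) * k' := by
            rw [hc]; group
          rw [this, h2]; group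
        have hcQ : c ∈ Q := by
          apply hn
          have hI : Q ⊓ centralizer ({c} : Set X) = Q := by
            apply frobAbs_aux Q _ hq inf_le_left
            intro hbot
            have : a ∈ Q ⊓ centralizer ({c} : Set X) := by
              refine ⟨ha, ?_⟩
              show a ∈ centralizer ({c} : Set X)
              rw [mem_centralizer_iff]
              intro z hz
              rw [Set.mem_singleton_iff] at hz
              rw [hz]
              exact mul_inv_eq_iff_eq_mul.1 hca
            rw [hbot] at this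
            exact ha1 (Subgroup.mem_bot.1 this)
          intro b hb
          have hb2 : b ∈ Q ⊓ centralizer ({c} : Set X) := by rw [hI]; exact hb
          have hb3 : b ∈ centralizer ({c} : Set X) := hb2.2
          rw [mem_centralizer_iff] at hb3
          have := hb3 c rfl
          rw [this, mul_inv_cancel_right]
          exact hb
        have hcK : c ∈ K := mul_mem (inv_mem k'.2) k.2
        have hc1 := hQK1 c hcQ hcK
        apply Subtype.ext
        exact (inv_mul_eq_one.1 hc1).symm
      have hφs : Function.Surjective φ := Finite.injective_iff_surjective.1 hφ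
      obtain ⟨k, hk⟩ := hφs ⟨a⁻¹ * x, hak⟩
      have hk' : a⁻¹ * ((k : X) * a * (k : X)⁻¹) = a⁻¹ * x := congrArg Subtype.val hk
      have hx2 : (k : X) * a * (k : X)⁻¹ = x := mul_left_cancel hk'
      rcases hx with h1 | h1
      · apply hxK'
        rw [h1]; exact one_mem K
      · apply h1 (k : X)
        rw [hmemc, ← hx2]
        have : (k : X)⁻¹ * ((k : X) * a * (k : X)⁻¹) * (k : X) = a := by group
        rw [this]; exact ha

end Cfsg.Agent.Lib.H99Mc
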