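import Cfsg.Agent.Lib.H99McDefs
import Cfsg.Agent.Lib.H99McSelfNorm
import Cfsg.Agent.Lib.H99McNormalCase

set_option autoImplicit false
set_option linter.unusedSectionVars false
set_option linter.unusedVariables false

namespace Cfsg.Agent.Lib.H99Mc

open Subgroup

/-- if `C_G(x)` were normal, `normalCase` gives `⁅N,N⁆ ≤ D N x`, so `x ∈ KK N`. Then `selfNorm`. (`x ∉ KK N` implies `x ∉ C(N)`.) -/
theorem outK {G : Type*} [Group G] [Finite G] (N : Subgroup G) [N.Normal] (h : Hyp N) {x : G} (hx : x ∈ N) (hx' : x ∉ KK N) :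
    SN N x ∧ x ∉ centralizer (N : Set G) := by
  have hx2 : x ∉ centralizer (N : Set G) := by
    intro hc
    apply hx'
    refine ⟨hx, ?_⟩
    exact Subgroup.centralizer_le (show ((⁅N, N⁆ : Subgroup G) : Set G) ⊆ (N : Set G) from
      Subgroup.commutator_le_left N N) hc
  refine ⟨selfNorm N h hx hx2 ?_, hx2⟩
  intro hn
  obtain ⟨-, hle⟩ := normalCase N h hx hx2 hn
  apply hx'
  refine ⟨hx, ?_⟩
  change x ∈ centralizer ((⁅N, N⁆ : Subgroup G) : Set G)
  rw [Subgroup.mem_centralizer_iff]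
  intro c hc
  have h1 : c ∈ centralizer ({x} : Set G) := (hle hc).2
  rw [Subgroup.mem_centralizer_iff] at h1
  exact (h1 x rfl).symm

end Cfsg.Agent.Lib.H99Mc
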