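import Cfsg.Agent.Lib.H99McDefs
import Cfsg.Agent.Lib.H99McOutK

set_option autoImplicit false
set_option linter.unusedSectionVars false
set_option linter.unusedVariables false

namespace Cfsg.Agent.Lib.H99Mc

open Subgroup

/-- F7. Suppose `KK N ≤ C(N)`. Every `y ∈ N \ C(N)` is `∉ KK N`, so `SN N y` (`outK`). For `y l ∈ ⁅N,N⁆`: if `y ∉ C(N)`:
`l y l⁻¹ = z y`, `z = ⁅l,y⁆ ∈ N'' ≤ C(N)`, so conjugation by `l` maps `D N y` into `D N (z y) = D N y`, so `l ∈ D N y`. So `⁅N,N⁆` is abelian,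
`⁅N,N⁆ ≤ KK N ≤ C(N)`: contradiction with `hc`. -/
theorem kBig {G : Type*} [Group G] [Finite G] (N : Subgroup G) [N.Normal] (h : Hyp N) (hc : ¬ ⁅N, N⁆ ≤ centralizer (N : Set G))
    (hs : ⁅⁅N, N⁆, ⁅N, N⁆⁆ ≤ centralizer (N : Set G)) : ¬ KK N ≤ centralizer (N : Set G) := by
  intro hKK
  apply hc
  have hLN : ⁅N, N⁆ ≤ N := commutator_le_left N N
  have hab : ∀ y ∈ ⁅N, N⁆, ∀ l ∈ ⁅N, N⁆, l * y = y * l := by
    intro y hy l hl
    by_cases hyC : y ∈ centralizer (N : Set G)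
    · exact (mem_centralizer_iff.1 hyC) l (hLN hl)
    · have hyK : y ∉ KK N := fun h0 => hyC (hKK h0)
      obtain ⟨hsn, -⟩ := outK N h (hLN hy) hyK
      have hl' : l ∈ D N y := by
        apply hsn l (hLN hl)
        intro d hd
        have haN : l * d * l⁻¹ ∈ N := ‹N.Normal›.conj_mem _ (mem_inf.1 hd).1 l
        refine mem_inf.2 ⟨haN, ?_⟩
        rw [mem_centralizer_singleton_iff]
        have hdy : d * y = y * d := mem_centralizer_singleton_iff.1 (mem_inf.1 hd).2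
        have hz : l * y * l⁻¹ * y⁻¹ ∈ centralizer (N : Set G) := by
          have := hs (commutator_mem_commutator hl hy)
          rwa [commutatorElement_def] at this
        have hzc := (mem_centralizer_iff.1 hz) (l * d * l⁻¹) haN
        have h1 : (l * d * l⁻¹) * ((l * y * l⁻¹ * y⁻¹) * y) = ((l * y * l⁻¹ * y⁻¹) * y) * (l * d * l⁻¹) := by
          have e1 : (l * y * l⁻¹ * y⁻¹) * y = l * y * l⁻¹ := by group
          rw [e1]
          calc l * d * l⁻¹ * (l * y * l⁻¹) = l * (d * y) * l⁻¹ := by group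
            _ = l * (y * d) * l⁻¹ := by rw [hdy]
            _ = _ := by group
        have h2 : (l * y * l⁻¹ * y⁻¹) * ((l * d * l⁻¹) * y) = (l * y * l⁻¹ * y⁻¹) * (y * (l * d * l⁻¹)) := by
          rw [← mul_assoc, ← hzc, mul_assoc, h1, mul_assoc]
        exact mul_left_cancel h2
      exact mem_centralizer_singleton_iff.1 (mem_inf.1 hl').2
  intro y hy
  apply hKK
  refine mem_inf.2 ⟨hLN hy, ?_⟩
  rw [mem_centralizer_iff]
  intro l hl
  exact hab y hy l hl

end Cfsg.Agent.Lib.H99Mc
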