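import Cfsg.Agent.Lib.H99McDefs
import Cfsg.Agent.Lib.H99McCKx
import Cfsg.Agent.Lib.H99McInK
import Cfsg.Agent.Lib.H99McNormalCase

set_option autoImplicit false
set_option linter.unusedSectionVars false
set_option linter.unusedVariables false

namespace Cfsg.Agent.Lib.H99Mc

open Subgroup

/-- F6. `D N y ≤ KK N`: `d ∈ D N y`, `d ∉ KK N` would give `y ∈ C(N)` by `cKx`. `(D N y).relIndex N` is prime (`inK`, `normalCase`),
`D N y ≤ KK N ≤ N`, `KK N ≠ N` (else `⁅N,N⁆ ≤ C(N)`), so `KK N = D N y`. -/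
theorem kEq {G : Type*} [Group G] [Finite G] (N : Subgroup G) [N.Normal] (h : Hyp N) (hc : ¬ ⁅N, N⁆ ≤ centralizer (N : Set G))
    {y : G} (hy : y ∈ KK N) (hy' : y ∉ centralizer (N : Set G)) : D N y = KK N ∧ ((KK N).relIndex N).Prime := by
  have hyN : y ∈ N := hy.1
  have hn := inK N h hy hy'
  obtain ⟨hprime, hcomm⟩ := normalCase N h hyN hy' hn
  have hDK : D N y ≤ KK N := by
    intro d hd
    by_contra hdK
    have hd2 : d ∈ centralizer ({y} : Set G) := (Subgroup.mem_inf.mp hd).2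
    rw [Subgroup.mem_centralizer_singleton_iff] at hd2
    exact hy' (cKx N h (Subgroup.mem_inf.mp hd).1 hdK hy hd2)
  have hKN : KK N ≤ N := inf_le_left
  have hNK : ¬ N ≤ KK N := by
    intro hle
    apply hc
    have h1 : N ≤ centralizer ((⁅N, N⁆ : Subgroup G) : Set G) := hle.trans inf_le_right
    exact Subgroup.le_centralizer_iff.mp h1
  have hmul := Subgroup.relIndex_mul_relIndex (D N y) (KK N) N hDK hKN
  have h2 : (KK N).relIndex N ≠ 1 := by
    intro h1
    exact hNK (Subgroup.relIndex_eq_one.mp h1)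
  have h3 : (D N y).relIndex (KK N) = 1 := by
    rw [← hmul] at hprime
    rcases (Nat.prime_mul_iff.mp hprime) with ⟨_, h4⟩ | ⟨_, h4⟩
    · exact absurd h4 h2
    · exact h4
  have h5 : D N y = KK N := le_antisymm hDK (Subgroup.relIndex_eq_one.mp h3)
  refine ⟨h5, ?_⟩
  rw [← h5]; exact hprime

end Cfsg.Agent.Lib.H99Mc
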