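import Cfsg.Agent.Lib.H99McDefs
import Cfsg.Agent.Lib.H99McMaxInv
import Cfsg.Agent.Lib.H99McCKx
import Cfsg.Agent.Lib.H99McKEq
import Cfsg.Agent.Lib.H99McOutK

set_option autoImplicit false
set_option linter.unusedSectionVars false
set_option linter.unusedVariables false

namespace Cfsg.Agent.Lib.H99Mc

open Subgroup

/-- `K = KK N` is abelian, normal in `G`; `K₀ = {k ∈ K | k^p ∈ Z}`; `maxInv` for `D N x ⊔ K₀`. -/
theorem kPow {G : Type*} [Group G] [Finite G] (N : Subgroup G) [N.Normal] (h : Hyp N) (hc : ¬ ⁅N, N⁆ ≤ centralizer (N : Set G))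
    (hK : ¬ KK N ≤ centralizer (N : Set G)) : ∃ p : ℕ, p.Prime ∧ ∀ k ∈ KK N, k ^ p ∈ centralizer (N : Set G) := by
  classical
  have hCn : (centralizer (N : Set G)).Normal := inferInstance
  have hKN : KK N ≤ N := inf_le_left
  have hKn : ∀ g k : G, k ∈ KK N → g * k * g⁻¹ ∈ KK N := by
    intro g k hk
    have h1 : (centralizer ((⁅N, N⁆ : Subgroup G) : Set G)).Normal := inferInstance
    exact ⟨‹N.Normal›.conj_mem k hk.1 g, h1.conj_mem k hk.2 g⟩
  have hab : ∀ a ∈ KK N, ∀ b ∈ KK N, a * b = b * a := by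
    intro a ha b hb
    by_cases hac : a ∈ centralizer (N : Set G)
    · exact ((mem_centralizer_iff.mp hac) b (hKN hb)).symm
    · have h1 := (kEq N h hc ha hac).1
      have h2 : b ∈ D N a := by rw [h1]; exact hb
      exact (mem_centralizer_iff.mp h2.2) a (Set.mem_singleton a)
  obtain ⟨k0, hk0, hk0C⟩ := SetLike.not_le_iff_exists.mp hK
  have hex : ∃ m : ℕ, 0 < m ∧ k0 ^ m ∈ centralizer (N : Set G) :=
    ⟨orderOf k0, orderOf_pos k0, by rw [pow_orderOf_eq_one]; exact Subgroup.one_mem _⟩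
  obtain ⟨m, hmpos, hmC, hmin⟩ : ∃ m, 0 < m ∧ k0 ^ m ∈ centralizer (N : Set G) ∧
      ∀ m' < m, 0 < m' → k0 ^ m' ∉ centralizer (N : Set G) :=
    ⟨Nat.find hex, (Nat.find_spec hex).1, (Nat.find_spec hex).2,
      fun m' h1 h2 h3 => Nat.find_min hex h1 ⟨h2, h3⟩⟩
  have hm1 : m ≠ 1 := by
    intro e; rw [e, pow_one] at hmC; exact hk0C hmC
  have hpp : (m.minFac).Prime := Nat.minFac_prime hm1
  obtain ⟨m', hm'⟩ := Nat.minFac_dvd m
  obtain ⟨p, hp⟩ : ∃ p, p = m.minFac := ⟨_, rfl⟩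
  rw [← hp] at hpp hm'
  have hm'pos : 0 < m' := by
    rcases Nat.eq_zero_or_pos m' with h0 | h0
    · rw [h0, mul_zero] at hm'; omega
    · exact h0
  have hm'lt : m' < m := by
    have := hpp.two_le
    nlinarith
  have hk1K : k0 ^ m' ∈ KK N := (KK N).pow_mem hk0 m'
  have hk1C : k0 ^ m' ∉ centralizer (N : Set G) := hmin m' hm'lt hm'pos
  have hk1p : (k0 ^ m') ^ p ∈ centralizer (N : Set G) := by
    rw [← pow_mul, mul_comm, ← hm']; exact hmC
  let K0 : Subgroup G :=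
    { carrier := {k | k ∈ KK N ∧ k ^ p ∈ centralizer (N : Set G)}
      mul_mem' := by
        intro a b ha hb
        refine ⟨(KK N).mul_mem ha.1 hb.1, ?_⟩
        rw [(show Commute a b from hab a ha.1 b hb.1).mul_pow]
        exact Subgroup.mul_mem _ ha.2 hb.2
      one_mem' := ⟨(KK N).one_mem, by rw [one_pow]; exact Subgroup.one_mem _⟩
      inv_mem' := by
        intro a ha
        exact ⟨(KK N).inv_mem ha.1, by rw [inv_pow]; exact Subgroup.inv_mem _ ha.2⟩ }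
  have hK0n : K0.Normal :=
    ⟨fun k hk g => ⟨hKn g k hk.1, by rw [conj_pow]; exact hCn.conj_mem _ hk.2 g⟩⟩
  have hNK : ¬ N ≤ KK N := by
    intro hle
    apply hc
    intro c hcc
    rw [mem_centralizer_iff]
    intro n hn
    have h1 := (hle hn).2
    exact ((mem_centralizer_iff.mp h1) c hcc).symm
  obtain ⟨x, hx, hxK⟩ := SetLike.not_le_iff_exists.mp hNK
  have hxC := (outK N h hx hxK).2
  have hmem : ∀ l, l ∈ D N x ⊔ K0 → ∃ d ∈ D N x, ∃ k ∈ K0, d * k = l := by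
    intro l hl
    have h1 : l ∈ ((D N x ⊔ K0 : Subgroup G) : Set G) := hl
    rw [Subgroup.mul_normal, Set.mem_mul] at h1
    obtain ⟨c, hc, d, hd, e⟩ := h1
    exact ⟨c, hc, d, hd, e⟩
  have hinv : ∀ m ∈ centralizer ({x} : Set G), ∀ t ∈ D N x ⊔ K0, m * t * m⁻¹ ∈ D N x ⊔ K0 := by
    intro m hm t ht
    obtain ⟨d, hd, k, hk, rfl⟩ := hmem t ht
    have e : m * (d * k) * m⁻¹ = (m * d * m⁻¹) * (m * k * m⁻¹) := by group
    rw [e]
    refine Subgroup.mul_mem _ ((le_sup_left : D N x ≤ D N x ⊔ K0)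
      ⟨‹N.Normal›.conj_mem d hd.1 m, ?_⟩) ((le_sup_right : K0 ≤ D N x ⊔ K0) (hK0n.conj_mem k hk m))
    exact Subgroup.mul_mem _ (Subgroup.mul_mem _ hm hd.2) (Subgroup.inv_mem _ hm)
  rcases maxInv N h hx hxC (D N x ⊔ K0) (sup_le inf_le_left (fun k hk => hKN hk.1)) le_sup_left hinv
    with hT | hT
  · exfalso
    have h1 : k0 ^ m' ∈ D N x := by
      rw [← hT]; exact (le_sup_right : K0 ≤ D N x ⊔ K0) ⟨hk1K, hk1p⟩
    exact hk1C (cKx N h hx hxK hk1K ((mem_centralizer_iff.mp h1.2) x (Set.mem_singleton x)))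
  · refine ⟨p, hpp, fun k hk => ?_⟩
    have h1 : k ∈ D N x ⊔ K0 := by rw [hT]; exact hKN hk
    obtain ⟨d, hd, k', hk', rfl⟩ := hmem k h1
    have hdK : d ∈ KK N := by
      have h2 := (KK N).mul_mem hk ((KK N).inv_mem hk'.1)
      rwa [mul_inv_cancel_right] at h2
    have hdC : d ∈ centralizer (N : Set G) :=
      cKx N h hx hxK hdK ((mem_centralizer_iff.mp hd.2) x (Set.mem_singleton x))
    rw [(show Commute d k' from hab d hdK k' hk'.1).mul_pow]
    exact Subgroup.mul_mem _ (Subgroup.pow_mem _ hdC p) hk'.2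

end Cfsg.Agent.Lib.H99Mc
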