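import Cfsg.Agent.Lib.H99McDefs
import Cfsg.Agent.Lib.H99McDefs2
import Cfsg.Agent.Lib.H99McSelfNorm
import Cfsg.Agent.Lib.H99McNormalCase

set_option autoImplicit false
set_option linter.unusedSectionVars false
set_option linter.unusedVariables false

namespace Cfsg.Agent.Lib.H99Mc

open Subgroup

/-- if `C_G(x)` is normal then `N = ⁅N,N⁆ ≤ D N x` (`normalCase`), `x ∈ C(N)`. So `selfNorm` applies. -/
theorem perfSN {G : Type*} [Group G] [Finite G] (N : Subgroup G) [N.Normal] (h : Hyp N) (hp : ⁅N, N⁆ = N) {x : G} (hx : x ∈ N)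
    (hx' : x ∉ centralizer (N : Set G)) : SN N x := by
  apply selfNorm N h hx hx'
  intro hn
  obtain ⟨-, h2⟩ := normalCase N h hx hx' hn
  rw [hp] at h2
  apply hx'
  rw [Subgroup.mem_centralizer_iff]
  intro n hn'
  have h3 : n ∈ centralizer ({x} : Set G) := (h2 hn').2
  rw [Subgroup.mem_centralizer_singleton_iff] at h3
  exact h3

end Cfsg.Agent.Lib.H99Mc
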