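import Cfsg.Agent.Lib.H99McDefs
import Cfsg.Agent.Lib.H99McDefs2
import Cfsg.Agent.Lib.H99McCoprimeD
import Cfsg.Agent.Lib.H99McCentX
import Cfsg.Agent.Lib.H99McPerfSN

set_option autoImplicit false
set_option linter.unusedSectionVars false
set_option linter.unusedVariables false

namespace Cfsg.Agent.Lib.H99Mc

open Subgroup

theorem pX1_notmem {G : Type*} [Group G] (N : Subgroup G) (a : ↥N)
    (ha : (QuotientGroup.mk a : ↥N ⧸ Subgroup.center ↥N) ≠ 1) : (a : G) ∉ centralizer (N : Set G) := by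
  intro hc
  apply ha
  rw [QuotientGroup.eq_one_iff, Subgroup.mem_center_iff]
  intro g
  apply Subtype.ext
  have := (Subgroup.mem_centralizer_iff.1 hc) (g : G) g.2
  simpa using this

theorem pX1_mem {G : Type*} [Group G] (N : Subgroup G) (z : ↥N)
    (hz : z ∈ Subgroup.center ↥N) : (z : G) ∈ centralizer (N : Set G) := by
  rw [Subgroup.mem_centralizer_iff]
  intro g hg
  have := (Subgroup.mem_center_iff.1 hz) ⟨g, hg⟩
  have h2 := congrArg Subtype.val this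
  simpa using h2

theorem pX1_pow {X : Type*} [Group X] (x y : X) (hc : Commute x y)
    (ho : (orderOf x).Coprime (orderOf y)) : ∃ k : ℕ, x = (x * y) ^ k := by
  obtain ⟨m, hm⟩ := exists_pow_eq_self_of_coprime (x := x) (n := orderOf y) ho.symm
  refine ⟨orderOf y * m, ?_⟩
  rw [pow_mul, hc.mul_pow, pow_orderOf_eq_one, mul_one, hm]

theorem pX1_D {G : Type*} [Group G] [Finite G] (N : Subgroup G) [N.Normal] (h : Hyp N)
    (a w : ↥N) (k : ℕ) (ha : (QuotientGroup.mk a : ↥N ⧸ Subgroup.center ↥N) ≠ 1)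
    (hk : (QuotientGroup.mk a : ↥N ⧸ Subgroup.center ↥N) = (QuotientGroup.mk w) ^ k) :
    D N (a : G) = D N (w : G) := by
  have hw1 : (QuotientGroup.mk w : ↥N ⧸ Subgroup.center ↥N) ≠ 1 := by
    intro h1
    apply ha
    rw [hk, h1, one_pow]
  have hz : (w ^ k)⁻¹ * a ∈ Subgroup.center ↥N := by
    rw [← QuotientGroup.eq, QuotientGroup.mk_pow, hk]
  refine coprimeD N h (z := (((w ^ k)⁻¹ * a : ↥N) : G)) k (pX1_notmem N a ha) w.2 (pX1_notmem N w hw1)
    ((w ^ k)⁻¹ * a : ↥N).2 (pX1_mem N _ hz) ?_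
  simp

/-- `x̄ = mk x`, `ȳ = mk y`, `w = x * y`. Coprime orders + commuting: `x̄ = w̄^k`, `ȳ = w̄^l` for some `k l`, `w̄ ≠ 1`. So `x = w^k z`, `z ∈ Z(N)`: `coprimeD` gives
`D N x = D N w = D N y`; `centX` (with `perfSN`) translates to centralizers in the quotient. (`mk a ≠ 1 ↔ a ∉ C(N)`.) -/
theorem pX1 {G : Type*} [Group G] [Finite G] (N : Subgroup G) [N.Normal] (h : Hyp N) (hp : ⁅N, N⁆ = N)
    (x y : ↥N ⧸ Subgroup.center ↥N) (hx : x ≠ 1) (hy : y ≠ 1) (hc : Commute x y) (ho : (orderOf x).Coprime (orderOf y)) :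
    centralizer ({x} : Set (↥N ⧸ Subgroup.center ↥N)) = centralizer ({y} : Set (↥N ⧸ Subgroup.center ↥N)) := by
  obtain ⟨a, rfl⟩ := QuotientGroup.mk_surjective x
  obtain ⟨b, rfl⟩ := QuotientGroup.mk_surjective y
  obtain ⟨k, hk⟩ := pX1_pow _ _ hc ho
  obtain ⟨l, hl⟩ := pX1_pow _ _ hc.symm ho.symm
  rw [hc.symm.eq] at hl
  rw [← QuotientGroup.mk_mul] at hk hl
  have h1 := pX1_D N h a (a * b) k hx hk
  have h2 := pX1_D N h b (a * b) l hy hl
  ext g
  obtain ⟨n, rfl⟩ := QuotientGroup.mk_surjective g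
  rw [centX N a (perfSN N h hp a.2 (pX1_notmem N a hx)) n,
    centX N b (perfSN N h hp b.2 (pX1_notmem N b hy)) n, h1, h2]

end Cfsg.Agent.Lib.H99Mc
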