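import Cfsg.Agent.Lib.H99McDefs
import Cfsg.Agent.Lib.H99McDefs2
import Cfsg.Agent.Lib.H99McCentX
import Cfsg.Agent.Lib.H99McPerfSN

set_option autoImplicit false
set_option linter.unusedSectionVars false
set_option linter.unusedVariables false

namespace Cfsg.Agent.Lib.H99Mc

open Subgroup

/-- from `perfSN` and `centX`. -/
theorem pX2 {G : Type*} [Group G] [Finite G] (N : Subgroup G) [N.Normal] (h : Hyp N) (hp : ⁅N, N⁆ = N)
    (x : ↥N ⧸ Subgroup.center ↥N) (hx : x ≠ 1) (g : ↥N ⧸ Subgroup.center ↥N)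
    (hg : ∀ d ∈ centralizer ({x} : Set (↥N ⧸ Subgroup.center ↥N)), g * d * g⁻¹ ∈ centralizer ({x} : Set (↥N ⧸ Subgroup.center ↥N))) :
    g ∈ centralizer ({x} : Set (↥N ⧸ Subgroup.center ↥N)) := by
  obtain ⟨a, rfl⟩ := QuotientGroup.mk_surjective x
  obtain ⟨n, rfl⟩ := QuotientGroup.mk_surjective g
  have ha' : (a : G) ∉ centralizer (N : Set G) := by
    intro hc
    apply hx
    rw [QuotientGroup.eq_one_iff, Subgroup.mem_center_iff]
    intro b
    apply Subtype.ext
    exact (mem_centralizer_iff.1 hc) b b.2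
  have hsn : SN N (a : G) := perfSN N h hp a.2 ha'
  rw [centX N a hsn n]
  apply hsn n n.2
  intro d hd
  have hdN : d ∈ N := (mem_inf.1 hd).1
  have h1 := (centX N a hsn ⟨d, hdN⟩).2 hd
  have h2 := hg _ h1
  rw [← QuotientGroup.mk_mul, ← QuotientGroup.mk_inv, ← QuotientGroup.mk_mul] at h2
  exact (centX N a hsn _).1 h2

end Cfsg.Agent.Lib.H99Mc
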