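import Cfsg.Agent.Lib.H99McDefs
import Cfsg.Agent.Lib.H99McDefs2

set_option autoImplicit false
set_option linter.unusedSectionVars false
set_option linter.unusedVariables false

namespace Cfsg.Agent.Lib.H99Mc

open Subgroup

theorem pX3 {G : Type*} [Group G] (N : Subgroup G) (hp : ⁅N, N⁆ = N) :
    ⁅(⊤ : Subgroup (↥N ⧸ Subgroup.center ↥N)), (⊤ : Subgroup (↥N ⧸ Subgroup.center ↥N))⁆ = ⊤ := by
  have h1 : ⁅(⊤ : Subgroup ↥N), (⊤ : Subgroup ↥N)⁆ = ⊤ := by
    apply Subgroup.map_injective N.subtype_injective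
    rw [Subgroup.map_commutator, ← MonoidHom.range_eq_map, Subgroup.range_subtype, hp]
  have h2 := congrArg (Subgroup.map (QuotientGroup.mk' (Subgroup.center ↥N))) h1
  rw [Subgroup.map_commutator,
    Subgroup.map_top_of_surjective _ (QuotientGroup.mk'_surjective (Subgroup.center ↥N))] at h2
  exact h2

end Cfsg.Agent.Lib.H99Mc
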