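import Cfsg.Agent.Lib.H99McDefs
import Cfsg.Agent.Lib.H99McDefs2
import Cfsg.Agent.Lib.H99McPX1
import Cfsg.Agent.Lib.H99McPX2
import Cfsg.Agent.Lib.H99McPX3
import Cfsg.Agent.Lib.H99McA6
import Cfsg.Agent.Lib.H99McCnt

set_option autoImplicit false
set_option linter.unusedSectionVars false
set_option linter.unusedVariables false

namespace Cfsg.Agent.Lib.H99Mc

open Subgroup

/-- `X = ↥N ⧸ center ↥N` satisfies `PX` (`pX1 pX2 pX3`), so `a6` + `cnt`: `X` is trivial, `N` is abelian, `N = ⁅N,N⁆ = ⊥`. -/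
theorem perfect {G : Type*} [Group G] [Finite G] (N : Subgroup G) [N.Normal] (h : Hyp N) (hp : ⁅N, N⁆ = N) : N = ⊥ := by
  have hPX : PX (↥N ⧸ Subgroup.center ↥N) :=
    ⟨fun x y hx hy hc ho => pX1 N h hp x y hx hy hc ho, fun x hx g hg => pX2 N h hp x hx g hg,
      pX3 N hp⟩
  have hsub : Subsingleton (↥N ⧸ Subgroup.center ↥N) := cnt (fun x hx => a6 hPX hx)
  have hcen : ∀ n : ↥N, n ∈ Subgroup.center ↥N := by
    intro n
    rw [← QuotientGroup.eq_one_iff]
    exact Subsingleton.elim _ _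
  have hcomm : ⁅N, N⁆ = ⊥ := by
    rw [Subgroup.commutator_eq_bot_iff_le_centralizer]
    intro a ha
    rw [Subgroup.mem_centralizer_iff]
    intro b hb
    have h1 := Subgroup.mem_center_iff.1 (hcen ⟨a, ha⟩) ⟨b, hb⟩
    exact congrArg Subtype.val h1
  rw [← hp, hcomm]

end Cfsg.Agent.Lib.H99Mc
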