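import Cfsg.Agent.Lib.H99McDefs

set_option autoImplicit false
set_option linter.unusedSectionVars false
set_option linter.unusedVariables false

namespace Cfsg.Agent.Lib.H99Mc

open Subgroup
open scoped commutatorElement

theorem transEA {G : Type*} [Group G] (N : Subgroup G) (p : ℕ) (hc : ⁅N, N⁆ ≤ centralizer (N : Set G))
    (hp : ∀ x ∈ N, x ^ p ∈ centralizer (N : Set G)) :
    Cfsg.IsElementaryAbelian p (⊤ : Subgroup (↥N ⧸ Subgroup.center ↥N)) := by
  have hcen : ∀ z : N, (z : G) ∈ centralizer (N : Set G) → z ∈ Subgroup.center ↥N := by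
    intro z hz
    rw [Subgroup.mem_center_iff]
    intro g
    apply Subtype.ext
    have := (Subgroup.mem_centralizer_iff.1 hz) (g : G) g.2
    simpa using this
  refine ⟨?_, ?_⟩
  · refine ⟨⟨?_⟩⟩
    rintro ⟨a, -⟩ ⟨b, -⟩
    apply Subtype.ext
    show a * b = b * a
    induction a using QuotientGroup.induction_on with
    | H a =>
      induction b using QuotientGroup.induction_on with
      | H b =>
        rw [← QuotientGroup.mk_mul, ← QuotientGroup.mk_mul, QuotientGroup.eq]
        apply hcen
        have h1 : ⁅(b : G)⁻¹, (a : G)⁻¹⁆ ∈ ⁅N, N⁆ :=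
          Subgroup.commutator_mem_commutator (N.inv_mem b.2) (N.inv_mem a.2)
        have h2 := hc h1
        have h3 : (((a * b)⁻¹ * (b * a) : N) : G) = ⁅(b : G)⁻¹, (a : G)⁻¹⁆ := by
          simp [commutatorElement_def, mul_assoc]
        rw [h3]
        exact h2
  · intro a _
    induction a using QuotientGroup.induction_on with
    | H a =>
      rw [← QuotientGroup.mk_pow, QuotientGroup.eq_one_iff]
      apply hcen
      simpa using hp (a : G) a.2

end Cfsg.Agent.Lib.H99Mc
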