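import Cfsg.Agent.Lib.H99McDefs
import Cfsg.Agent.Lib.H99McFrobAbs

set_option autoImplicit false
set_option linter.unusedSectionVars false
set_option linter.unusedVariables false

namespace Cfsg.Agent.Lib.H99Mc

open Subgroup

/-- Translation to `X = ↥N ⧸ center ↥N`: `Q = map (mk' _) ((D N x).subgroupOf N)`, `K̄ = map (mk' _) (K.subgroupOf N)`; apply `frobAbs`.
`center ↥N` corresponds to `Z = N ⊓ C(N)`; `Z ≤ D N x`, `Z ≤ K`. `K̄.index = K.relIndex N = q`. `D N x ⊓ K = Z` gives `Q ⊓ K̄ = ⊥` and `Q ≅ D K / K ≤ N / K` of prime order `q`, nontrivial as `x ∉ K`,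
so `|Q| = q`. Self-normalizing: from `hsn` (preimages contain `Z`). -/
theorem transFrob {G : Type*} [Group G] [Finite G] (N K : Subgroup G) (x : G) (p : ℕ) (hp : p.Prime) (hKN : K ≤ N)
    (hKn : ∀ n ∈ N, ∀ k ∈ K, n * k * n⁻¹ ∈ K) (hZK : N ⊓ centralizer (N : Set G) ≤ K) (hK : ¬ K ≤ centralizer (N : Set G))
    (hab : ∀ a ∈ K, ∀ b ∈ K, a * b = b * a) (hpow : ∀ k ∈ K, k ^ p ∈ centralizer (N : Set G)) (hq : (K.relIndex N).Prime)
    (hx : x ∈ N) (hxK : x ∉ K) (hDK : D N x ⊓ K ≤ centralizer (N : Set G)) (hsn : SN N x) :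
    ∃ (Q K' : Subgroup (↥N ⧸ Subgroup.center ↥N)) (p : ℕ), p.Prime ∧ Cfsg.IsFrobeniusComplement Q ∧ (Nat.card ↥Q).Prime ∧
      K'.Normal ∧ (K' : Set (↥N ⧸ Subgroup.center ↥N)) = Cfsg.frobeniusKernel Q ∧ Cfsg.IsElementaryAbelian p K' := by
  classical
  let π : ↥N →* ↥N ⧸ Subgroup.center ↥N := QuotientGroup.mk' (Subgroup.center ↥N)
  have hπs : Function.Surjective π := QuotientGroup.mk'_surjective _
  have mem_Z : ∀ n : ↥N, n ∈ Subgroup.center ↥N ↔ (n : G) ∈ centralizer (N : Set G) := by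
    intro n
    rw [Subgroup.mem_center_iff, Subgroup.mem_centralizer_iff]
    constructor
    · intro h g hg
      exact congrArg Subtype.val (h ⟨g, hg⟩)
    · intro h g
      exact Subtype.ext (h g g.2)
  have π1 : ∀ n : ↥N, π n = 1 ↔ (n : G) ∈ centralizer (N : Set G) := by
    intro n
    rw [← mem_Z]
    exact QuotientGroup.eq_one_iff n
  have πeq : ∀ a b : ↥N, π a = π b ↔ ((a⁻¹ * b : ↥N) : G) ∈ centralizer (N : Set G) := by
    intro a b
    rw [← mem_Z]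
    exact QuotientGroup.eq
  have ZD : ∀ g : G, g ∈ N → g ∈ centralizer (N : Set G) → g ∈ D N x := by
    intro g hg hc
    refine ⟨hg, ?_⟩
    show g ∈ centralizer ({x} : Set G)
    rw [Subgroup.mem_centralizer_iff]
    intro h hh
    rw [Set.mem_singleton_iff] at hh
    rw [hh]
    rw [Subgroup.mem_centralizer_iff] at hc
    exact hc x hx
  let Q : Subgroup (↥N ⧸ Subgroup.center ↥N) := ((D N x).subgroupOf N).map π
  let K' : Subgroup (↥N ⧸ Subgroup.center ↥N) := (K.subgroupOf N).map π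
  have memQ : ∀ n : ↥N, π n ∈ Q ↔ (n : G) ∈ D N x := by
    intro n
    constructor
    · rintro ⟨d, hd, hdn⟩
      have h1 := (πeq d n).1 hdn
      have h2 : ((d⁻¹ * n : ↥N) : G) ∈ D N x := ZD _ (d⁻¹ * n).2 h1
      have h3 : (d : G) ∈ D N x := hd
      have h4 : (n : G) = (d : G) * ((d⁻¹ * n : ↥N) : G) := by simp
      rw [h4]; exact (D N x).mul_mem h3 h2
    · intro h; exact ⟨n, h, rfl⟩
  have memK : ∀ n : ↥N, π n ∈ K' ↔ (n : G) ∈ K := by
    intro n
    constructor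
    · rintro ⟨d, hd, hdn⟩
      have h1 := (πeq d n).1 hdn
      have h2 : ((d⁻¹ * n : ↥N) : G) ∈ K := hZK ⟨(d⁻¹ * n).2, h1⟩
      have h3 : (d : G) ∈ K := hd
      have h4 : (n : G) = (d : G) * ((d⁻¹ * n : ↥N) : G) := by simp
      rw [h4]; exact K.mul_mem h3 h2
    · intro h; exact ⟨n, h, rfl⟩
  haveI hKsn : (K.subgroupOf N).Normal := ⟨fun k hk n => hKn n n.2 k hk⟩
  haveI hK'n : K'.Normal := Subgroup.Normal.map hKsn π hπs
  have hidx : K'.index = K.relIndex N := by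
    show ((K.subgroupOf N).map π).index = _
    rw [Subgroup.index_map_eq _ hπs]
    · rfl
    · intro n hn
      have h1 : π n = 1 := hn
      exact hZK ⟨n.2, (π1 n).1 h1⟩
  have hQK : Q ⊓ K' = ⊥ := by
    rw [eq_bot_iff]
    rintro g ⟨hgQ, hgK⟩
    obtain ⟨n, rfl⟩ := hπs g
    have h1 := (memQ n).1 hgQ
    have h2 := (memK n).1 hgK
    rw [Subgroup.mem_bot, π1]
    exact hDK ⟨h1, h2⟩
  have hxD : x ∈ D N x := by
    refine ⟨hx, ?_⟩
    show x ∈ centralizer ({x} : Set G)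
    rw [Subgroup.mem_centralizer_iff]
    intro h hh
    rw [Set.mem_singleton_iff] at hh
    rw [hh]
  have hQne : Q ≠ ⊥ := by
    intro h
    have h1 : π ⟨x, hx⟩ ∈ Q := (memQ _).2 hxD
    rw [h, Subgroup.mem_bot, π1] at h1
    exact hxK (hZK ⟨hx, h1⟩)
  have hcardQ : Nat.card Q = K.relIndex N := by
    have hinj : Function.Injective ((QuotientGroup.mk' K').comp Q.subtype) := by
      rw [injective_iff_map_eq_one]
      intro a ha
      have h1 : (a : ↥N ⧸ Subgroup.center ↥N) ∈ K' := (QuotientGroup.eq_one_iff _).1 ha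
      have h2 : (a : ↥N ⧸ Subgroup.center ↥N) ∈ Q ⊓ K' := ⟨a.2, h1⟩
      rw [hQK, Subgroup.mem_bot] at h2
      exact Subtype.ext h2
    have hdvd : Nat.card Q ∣ K'.index := Subgroup.card_dvd_of_injective _ hinj
    rw [hidx] at hdvd
    rcases (Nat.dvd_prime hq).1 hdvd with h | h
    · exact absurd (Subgroup.card_eq_one.1 h) hQne
    · exact h
  have hK'ne : K' ≠ ⊥ := by
    intro h
    apply hK
    intro k hk
    have h1 : π ⟨k, hKN hk⟩ ∈ K' := (memK _).2 hk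
    rw [h, Subgroup.mem_bot, π1] at h1
    exact h1
  have hn : ∀ g : ↥N ⧸ Subgroup.center ↥N, (∀ a ∈ Q, g * a * g⁻¹ ∈ Q) → g ∈ Q := by
    intro g hg
    obtain ⟨n, rfl⟩ := hπs g
    rw [memQ]
    apply hsn n n.2
    intro d hd
    have h1 := hg (π ⟨d, hd.1⟩) ((memQ _).2 hd)
    rw [← map_inv, ← map_mul, ← map_mul, memQ] at h1
    exact h1
  have hF := frobAbs Q K' (by rw [hcardQ]; exact hq) (by rw [hidx, hcardQ]) hQK hK'ne hn
  refine ⟨Q, K', p, hp, hF.1, by rw [hcardQ]; exact hq, hK'n, hF.2, ⟨⟨⟨?_⟩⟩, ?_⟩⟩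
  · rintro ⟨a, ha⟩ ⟨b, hb⟩
    obtain ⟨k1, hk1, rfl⟩ := ha
    obtain ⟨k2, hk2, rfl⟩ := hb
    apply Subtype.ext
    show π k1 * π k2 = π k2 * π k1
    rw [← map_mul, ← map_mul]
    congr 1
    exact Subtype.ext (hab k1 hk1 k2 hk2)
  · rintro a ⟨k, hk, rfl⟩
    rw [← map_pow, π1]
    exact hpow k hk

end Cfsg.Agent.Lib.H99Mc
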