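import Cfsg.Agent.Lib.Helper43BPDefs

set_option autoImplicit false

/-! Project 43, piece `cyc`. -/

namespace Cfsg.Agent.Lib.Helper66BPCyc

open Cfsg.Agent.Lib.Helper43BP

variable {Ω : Type*} [Fintype Ω] [DecidableEq Ω]

theorem exists_cyc (a b : Ω) (hab : a ≠ b) (S : Set Ω) (haS : a ∉ S) (hbS : b ∉ S) :
    ∃ (c : Equiv.Perm Ω) (ε : ℤˣ), Cyc a b S c ε := by
  classical
  obtain ⟨σ, hσ, hsupp⟩ := Finset.exists_cycleOn (S.toFinset)
  have hfix : ∀ x, x ∉ S → σ x = x := by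
    intro x hx
    by_contra hne
    have : x ∈ σ.support := Equiv.Perm.mem_support.mpr hne
    have := hsupp this
    exact hx (Set.mem_toFinset.mp this)
  have hmaps : ∀ x ∈ S, σ x ∈ S := by
    intro x hx
    have := hσ.1.mapsTo (Set.mem_toFinset.mpr hx : x ∈ (S.toFinset : Set Ω))
    exact Set.mem_toFinset.mp this
  have htrans : ∀ x ∈ S, ∀ y ∈ S, ∃ k : ℕ, (σ ^ k) x = y := by
    intro x hx y hy
    obtain ⟨n, -, hn⟩ := hσ.exists_pow_eq (Set.mem_toFinset.mpr hx) (Set.mem_toFinset.mpr hy)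
    exact ⟨n, hn⟩
  rcases Int.units_eq_one_or (Equiv.Perm.sign σ) with hs | hs
  · exact ⟨σ, 1, hs, fun x hx _ _ => hfix x hx, hmaps, htrans,
      Or.inl ⟨rfl, hfix a haS, hfix b hbS⟩⟩
  · have hS : ∀ x ∈ S, (σ * Equiv.swap a b) x = σ x := by
      intro x hx
      rw [Equiv.Perm.mul_apply, Equiv.swap_apply_of_ne_of_ne]
      · rintro rfl; exact haS hx
      · rintro rfl; exact hbS hx
    have hpowS : ∀ k : ℕ, ∀ x ∈ S, (σ ^ k) x ∈ S := by
      intro k
      induction k with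
      | zero => intro x hx; simpa using hx
      | succ k ih =>
        intro x hx
        rw [pow_succ', Equiv.Perm.mul_apply]
        exact hmaps _ (ih x hx)
    have hpow : ∀ k : ℕ, ∀ x ∈ S, ((σ * Equiv.swap a b) ^ k) x = (σ ^ k) x := by
      intro k
      induction k with
      | zero => intro x _; simp
      | succ k ih =>
        intro x hx
        rw [pow_succ', pow_succ', Equiv.Perm.mul_apply, ih x hx, hS _ (hpowS k x hx),
          Equiv.Perm.mul_apply]
    refine ⟨σ * Equiv.swap a b, -1, ?_, ?_, ?_, ?_, Or.inr ⟨rfl, ?_, ?_⟩⟩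
    · rw [map_mul, hs, Equiv.Perm.sign_swap hab]; decide
    · intro x hx hxa hxb
      rw [Equiv.Perm.mul_apply, Equiv.swap_apply_of_ne_of_ne hxa hxb, hfix x hx]
    · intro x hx
      rw [hS x hx]; exact hmaps x hx
    · intro x hx y hy
      obtain ⟨k, hk⟩ := htrans x hx y hy
      exact ⟨k, by rw [hpow k x hx, hk]⟩
    · rw [Equiv.Perm.mul_apply, Equiv.swap_apply_left, hfix b hbS]
    · rw [Equiv.Perm.mul_apply, Equiv.swap_apply_right, hfix a haS]

end Cfsg.Agent.Lib.Helper66BPCyc
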