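import Cfsg.Agent.Lib.Helper72BPC3

set_option autoImplicit false
set_option linter.unusedSectionVars false

namespace Cfsg.Agent.Lib.Helper72BPCycbasic

open Cfsg.Agent.Lib.Helper43BP Cfsg.Agent.Lib.Helper72BPC3

variable {Ω : Type*} [Fintype Ω] [DecidableEq Ω]

theorem Cyc_conj {a b : Ω} {S : Set Ω} {c : Equiv.Perm Ω} {ε : ℤˣ} (h : Cyc a b S c ε)
    (hab : a ≠ b) (i : Ω) (hia : i ≠ a) (hib : i ≠ b) :
    c * c3 a b i * c⁻¹ = (c3 a b (c i)) ^ (ε : ℤ) := by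
  rw [c3_conj]
  rcases h.ab with ⟨h1, h2, h3⟩ | ⟨h1, h2, h3⟩
  · rw [h1, h2, h3]
    simp
  · rw [h1, h2, h3]
    have hca : c i ≠ a := by
      intro h4
      rw [← h3] at h4
      exact hib (c.injective h4)
    have hcb : c i ≠ b := by
      intro h4
      rw [← h2] at h4
      exact hia (c.injective h4)
    rw [c3_swap a b (c i) hab hca hcb]
    simp

theorem Cyc_mem {a b : Ω} {S : Set Ω} {c : Equiv.Perm Ω} {ε : ℤˣ} (h : Cyc a b S c ε)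
    (A : Set Ω) (hS : S ⊆ A) (ha : a ∈ A) (hb : b ∈ A) : c ∈ altOn A := by
  refine ⟨h.sign, fun x hx => ?_⟩
  exact h.fix x (fun h1 => hx (hS h1)) (fun h1 => hx (h1 ▸ ha)) (fun h1 => hx (h1 ▸ hb))

theorem Cyc_comm {a b : Ω} {S S' : Set Ω} {c c' : Equiv.Perm Ω} {ε ε' : ℤˣ} (hab : a ≠ b)
    (h : Cyc a b S c ε) (h' : Cyc a b S' c' ε') (haS : a ∉ S) (hbS : b ∉ S) (haS' : a ∉ S')
    (hbS' : b ∉ S') (hd : Disjoint S S') : Commute c c' := by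
  have hne : ∀ {T : Set Ω} {x : Ω}, x ∈ T → a ∉ T → x ≠ a := fun hx ha h1 => ha (h1 ▸ hx)
  have hneb : ∀ {T : Set Ω} {x : Ω}, x ∈ T → b ∉ T → x ≠ b := fun hx ha h1 => ha (h1 ▸ hx)
  have hdis : ∀ {x : Ω}, x ∈ S → x ∉ S' := fun hx hx' => Set.disjoint_left.1 hd hx hx'
  have hdis' : ∀ {x : Ω}, x ∈ S' → x ∉ S := fun hx hx' => Set.disjoint_left.1 hd hx' hx
  unfold Commute SemiconjBy
  ext x
  rw [Equiv.Perm.mul_apply, Equiv.Perm.mul_apply]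
  by_cases hxS : x ∈ S
  · rw [h'.fix x (hdis hxS) (hne hxS haS) (hneb hxS hbS)]
    have h1 := h.maps x hxS
    rw [h'.fix _ (hdis h1) (hne h1 haS) (hneb h1 hbS)]
  by_cases hxS' : x ∈ S'
  · rw [h.fix x (hdis' hxS') (hne hxS' haS') (hneb hxS' hbS')]
    have h1 := h'.maps x hxS'
    rw [h.fix _ (hdis' h1) (hne h1 haS') (hneb h1 hbS')]
  by_cases hxa : x = a
  · subst hxa
    rcases h.ab with ⟨_, h2, h3⟩ | ⟨_, h2, h3⟩ <;> rcases h'.ab with ⟨_, h2', h3'⟩ | ⟨_, h2', h3'⟩ <;>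
      simp [h2, h3, h2', h3']
  by_cases hxb : x = b
  · subst hxb
    rcases h.ab with ⟨_, h2, h3⟩ | ⟨_, h2, h3⟩ <;> rcases h'.ab with ⟨_, h2', h3'⟩ | ⟨_, h2', h3'⟩ <;>
      simp [h2, h3, h2', h3']
  rw [h'.fix x hxS' hxa hxb, h.fix x hxS hxa hxb, h'.fix x hxS' hxa hxb]

end Cfsg.Agent.Lib.Helper72BPCycbasic
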