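import Cfsg.Agent.Lib.Helper36BPGen
import Cfsg.Agent.Lib.Helper66BPCyc
import Cfsg.Agent.Lib.Helper72BPCycbasic

set_option autoImplicit false

/-! Project 43, piece `alt2gen`: `altOn A` is generated by two elements. -/

namespace Cfsg.Agent.Lib.Helper36BPAlt2gen

open Cfsg.Agent.Lib.Helper43BP Cfsg.Agent.Lib.Helper72BPC3 Cfsg.Agent.Lib.Helper72BPCycbasic
  Cfsg.Agent.Lib.Helper66BPCyc Cfsg.Agent.Lib.Helper36BPGen

variable {Ω : Type*} [Fintype Ω] [DecidableEq Ω]

theorem altOn_two_gen (A : Set Ω) :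
    ∃ g1 g2 : Equiv.Perm Ω, Subgroup.closure ({g1, g2} : Set (Equiv.Perm Ω)) = altOn A := by
  by_cases h2 : ∃ a ∈ A, ∃ b ∈ A, a ≠ b
  · obtain ⟨a, ha, b, hb, hab⟩ := h2
    by_cases h3 : ∃ i ∈ A, i ≠ a ∧ i ≠ b
    · obtain ⟨i0, hi0, hi0a, hi0b⟩ := h3
      obtain ⟨c, ε, hc⟩ := exists_cyc a b hab (A \ {a, b}) (by simp) (by simp)
      refine ⟨c3 a b i0, c, le_antisymm ?_ ?_⟩
      · rw [Subgroup.closure_le]
        rintro g (rfl | rfl)
        · exact c3_mem A a b i0 ha hb hi0 hab hi0b
        · exact Cyc_mem hc A Set.diff_subset ha hb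
      · rw [← closure_c3 A a b hab ha hb, Subgroup.closure_le]
        set H := Subgroup.closure ({c3 a b i0, c} : Set (Equiv.Perm Ω)) with hH
        have hg1 : c3 a b i0 ∈ H := Subgroup.subset_closure (by simp)
        have hg2 : c ∈ H := Subgroup.subset_closure (by simp)
        have hS0 : i0 ∈ A \ {a, b} := ⟨hi0, by simp [hi0a, hi0b]⟩
        have key : ∀ k : ℕ, (c ^ k) i0 ∈ A \ {a, b} ∧ c3 a b ((c ^ k) i0) ∈ H := by
          intro k
          induction k with
          | zero => exact ⟨by simpa using hS0, by simpa using hg1⟩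
          | succ k ih =>
            obtain ⟨ih1, ih2⟩ := ih
            have e : (c ^ (k + 1)) i0 = c ((c ^ k) i0) := by
              rw [pow_succ', Equiv.Perm.mul_apply]
            rw [e]
            have hm := hc.maps _ ih1
            refine ⟨hm, ?_⟩
            have hja : c ((c ^ k) i0) ≠ a := fun h => hm.2 (by simp [h])
            have hjb : c ((c ^ k) i0) ≠ b := fun h => hm.2 (by simp [h])
            have hconj : c * c3 a b ((c ^ k) i0) * c⁻¹ ∈ H :=
              H.mul_mem (H.mul_mem hg2 ih2) (H.inv_mem hg2)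
            rw [c3_conj] at hconj
            rcases hc.ab with ⟨-, h1, h2⟩ | ⟨-, h1, h2⟩
            · rwa [h1, h2] at hconj
            · rw [h1, h2, c3_swap a b _ hab hja hjb] at hconj
              exact (H.inv_mem_iff).1 hconj
        rintro g ⟨i, hi, hia, hib, rfl⟩
        obtain ⟨k, hk⟩ := hc.trans i0 hS0 i ⟨hi, by simp [hia, hib]⟩
        rw [← hk]
        exact (key k).2
    · refine ⟨1, 1, ?_⟩
      rw [← closure_c3 A a b hab ha hb]
      have : {g : Equiv.Perm Ω | ∃ i ∈ A, i ≠ a ∧ i ≠ b ∧ g = c3 a b i} = ∅ := by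
        ext g
        simp only [Set.mem_setOf_eq, Set.mem_empty_iff_false, iff_false]
        rintro ⟨i, hi, h1, h2, -⟩
        exact h3 ⟨i, hi, h1, h2⟩
      rw [this]
      simp
  · refine ⟨1, 1, ?_⟩
    have : altOn A = ⊥ := by
      rw [eq_bot_iff]
      intro σ hσ
      rw [Subgroup.mem_bot]
      ext x
      by_contra hx
      have hx' : σ x ≠ x := hx
      have hxA : x ∈ A := by
        by_contra hcon
        exact hx' (hσ.2 x hcon)
      have hsxA : σ x ∈ A := by
        by_contra hcon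
        exact hx' (σ.injective (hσ.2 _ hcon))
      exact h2 ⟨σ x, hsxA, x, hxA, hx'⟩
    rw [this]
    simp

end Cfsg.Agent.Lib.Helper36BPAlt2gen
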