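import Cfsg.Agent.Lib.Helper43GlDefs
import Cfsg.Agent.Lib.Helper36BPAlt2gen

set_option autoImplicit false

/-! Project 43, wave 3, piece `a12`. -/

namespace Cfsg.Agent.Lib.Helper10BPA12

open Matrix Cfsg.Agent.Lib.Helper43BP Cfsg.Agent.Lib.Helper43St Cfsg.Agent.Lib.Helper43Gl
  Cfsg.Agent.Lib.Helper36BPAlt2gen

-- piece `a12`
theorem exists_a12 (m : ℕ) : ∃ a1 a2 : An m, a1.1 0 = 0 ∧ a1.1 1 = 1 ∧ a2.1 0 = 0 ∧ a2.1 1 = 1 ∧
    ∀ a : An m, a.1 0 = 0 → a.1 1 = 1 → a ∈ Subgroup.closure ({a1, a2} : Set (An m)) := by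
  obtain ⟨g1, g2, hg⟩ := altOn_two_gen ({i | 2 ≤ i.val} : Set (Fin (m + 4)))
  have h1 : g1 ∈ altOn ({i | 2 ≤ i.val} : Set (Fin (m + 4))) := by
    rw [← hg]; exact Subgroup.subset_closure (by simp)
  have h2 : g2 ∈ altOn ({i | 2 ≤ i.val} : Set (Fin (m + 4))) := by
    rw [← hg]; exact Subgroup.subset_closure (by simp)
  have n0 : (0 : Fin (m + 4)) ∉ ({i | 2 ≤ i.val} : Set (Fin (m + 4))) := by
    simp
  have n1 : (1 : Fin (m + 4)) ∉ ({i | 2 ≤ i.val} : Set (Fin (m + 4))) := by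
    simp
  refine ⟨⟨g1, Equiv.Perm.mem_alternatingGroup.2 h1.1⟩, ⟨g2, Equiv.Perm.mem_alternatingGroup.2 h2.1⟩,
    h1.2 0 n0, h1.2 1 n1, h2.2 0 n0, h2.2 1 n1, ?_⟩
  intro a ha0 ha1
  have ha : a.1 ∈ altOn ({i | 2 ≤ i.val} : Set (Fin (m + 4))) := by
    refine ⟨Equiv.Perm.mem_alternatingGroup.1 a.2, ?_⟩
    intro x hx
    have hx' : x.val < 2 := by simpa using hx
    have : x = 0 ∨ x = 1 := by
      rcases Nat.lt_or_ge x.val 1 with h | h
      · left; apply Fin.ext; rw [val0]; omega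
      · right; apply Fin.ext; rw [val1]; omega
    rcases this with rfl | rfl
    · exact ha0
    · exact ha1
  rw [← hg] at ha
  have hmap : (Subgroup.closure ({⟨g1, Equiv.Perm.mem_alternatingGroup.2 h1.1⟩,
      ⟨g2, Equiv.Perm.mem_alternatingGroup.2 h2.1⟩} : Set (An m))).map
      (alternatingGroup (Fin (m + 4))).subtype = Subgroup.closure ({g1, g2} : Set _) := by
    rw [MonoidHom.map_closure]
    congr 1
    simp [Set.image_pair]
  rw [← hmap] at ha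
  obtain ⟨b, hb, hba⟩ := ha
  have : b = a := Subtype.ext hba
  rw [← this]
  exact hb

end Cfsg.Agent.Lib.Helper10BPA12
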