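import Cfsg.Agent.Lib.Helper43GlDefs

set_option autoImplicit false

/-! Project 43, wave 3, piece `emb`. -/

namespace Cfsg.Agent.Lib.Helper10BPEmb

open Matrix Cfsg.Agent.Lib.Helper43BP Cfsg.Agent.Lib.Helper43St Cfsg.Agent.Lib.Helper43Gl

/-- the splitting of the coordinates -/
def eqv (m : ℕ) : Fin 3 ⊕ Fin (m + 1) ≃ Fin (m + 4) :=
  finSumFinEquiv.trans (finCongr (by omega))

theorem eqv_inl (m : ℕ) (a : Fin 3) :
    eqv m (Sum.inl a) = (![0, 1, 2] : Fin 3 → Fin (m + 4)) a := by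
  apply Fin.ext
  have h1 : (eqv m (Sum.inl a)).val = a.val := by
    simp [eqv]
  rw [h1]
  fin_cases a
  · rfl
  · exact (val1 m).symm
  · exact (val2 m).symm

/-- the block embedding -/
def embHom (m : ℕ) (F : Type*) [Field F] :
    SpecialLinearGroup (Fin 3) F →* SpecialLinearGroup (Fin (m + 4)) F where
  toFun g := ⟨(Matrix.fromBlocks g.1 0 0 (1 : Matrix (Fin (m + 1)) (Fin (m + 1)) F)).submatrix
      (eqv m).symm (eqv m).symm, by
    rw [Matrix.det_submatrix_equiv_self, Matrix.det_fromBlocks_zero₂₁, Matrix.det_one, mul_one]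
    exact g.2⟩
  map_one' := by
    apply Subtype.ext
    show (Matrix.fromBlocks (1 : Matrix (Fin 3) (Fin 3) F) 0 0
      (1 : Matrix (Fin (m + 1)) (Fin (m + 1)) F)).submatrix (eqv m).symm (eqv m).symm = 1
    rw [Matrix.fromBlocks_one]
    exact Matrix.submatrix_one_equiv _
  map_mul' g h := by
    apply Subtype.ext
    show (Matrix.fromBlocks (g.1 * h.1) 0 0
      (1 : Matrix (Fin (m + 1)) (Fin (m + 1)) F)).submatrix (eqv m).symm (eqv m).symm =
      (Matrix.fromBlocks g.1 0 0 (1 : Matrix (Fin (m + 1)) (Fin (m + 1)) F)).submatrix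
        (eqv m).symm (eqv m).symm *
      (Matrix.fromBlocks h.1 0 0 (1 : Matrix (Fin (m + 1)) (Fin (m + 1)) F)).submatrix
        (eqv m).symm (eqv m).symm
    rw [Matrix.submatrix_mul_equiv, Matrix.fromBlocks_multiply]
    simp

theorem embHom_tv (m : ℕ) (F : Type*) [Field F] (a b : Fin 3) (hab : a ≠ b) (t : F) :
    embHom m F (tv a b t) = tv (eqv m (Sum.inl a)) (eqv m (Sum.inl b)) t := by
  apply Subtype.ext
  ext x y
  obtain ⟨x', rfl⟩ := (eqv m).surjective x
  obtain ⟨y', rfl⟩ := (eqv m).surjective y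
  show (Matrix.fromBlocks (tv a b t : SpecialLinearGroup (Fin 3) F).1 0 0
      (1 : Matrix (Fin (m + 1)) (Fin (m + 1)) F)) ((eqv m).symm (eqv m x'))
      ((eqv m).symm (eqv m y')) =
    (tv (eqv m (Sum.inl a)) (eqv m (Sum.inl b)) t : SpecialLinearGroup (Fin (m + 4)) F)
      (eqv m x') (eqv m y')
  rw [Equiv.symm_apply_apply, Equiv.symm_apply_apply,
    tv_apply _ _ (fun h => hab (Sum.inl_injective ((eqv m).injective h)))]
  simp only [(eqv m).injective.eq_iff]
  rcases x' with x' | x' <;> rcases y' with y' | y'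
  · show (tv a b t : SpecialLinearGroup (Fin 3) F) x' y' = _
    rw [tv_apply a b hab]
    simp only [Sum.inl.injEq]
  · simp
  · simp
  · simp [Matrix.one_apply]

-- piece `emb`
theorem exists_emb (m : ℕ) (F : Type*) [Field F] :
    ∃ E : SpecialLinearGroup (Fin 3) F →* SpecialLinearGroup (Fin (m + 4)) F,
      ∀ a b t, a ≠ b → E (tv a b t) =
        tv ((![0, 1, 2] : Fin 3 → Fin (m + 4)) a) ((![0, 1, 2] : Fin 3 → Fin (m + 4)) b) t := by
  refine ⟨embHom m F, ?_⟩
  intro a b t hab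
  rw [embHom_tv m F a b hab, eqv_inl, eqv_inl]

end Cfsg.Agent.Lib.Helper10BPEmb
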