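import Cfsg.Agent.Lib.Helper10BPExt4

set_option autoImplicit false

/-! Project 43, wave 3, piece `ext2`. -/

namespace Cfsg.Agent.Lib.Helper10BPExt2

open Matrix Cfsg.Agent.Lib.Helper43BP Cfsg.Agent.Lib.Helper43St Cfsg.Agent.Lib.Helper43Gl
  Cfsg.Agent.Lib.Helper10BPExt4

variable {m : ℕ}

-- piece `ext2`
theorem ext2 (i j : Fin (m + 4)) (hij : i ≠ j) : ∃ σ : An m, σ.1 0 = i ∧ σ.1 1 = j := by
  obtain ⟨k, l, hkl, hik, hil, hjk, hjl⟩ := exists_two i j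
  obtain ⟨σ, h0, h1, _⟩ := ext4 i j k l hij hkl hik hil hjk hjl
  exact ⟨σ, h0, h1⟩

end Cfsg.Agent.Lib.Helper10BPExt2
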