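import Cfsg.Agent.Lib.Helper10BPExt4

set_option autoImplicit false

/-! Project 43, wave 3, piece `ext3`. -/

namespace Cfsg.Agent.Lib.Helper10BPExt3

open Matrix Cfsg.Agent.Lib.Helper43BP Cfsg.Agent.Lib.Helper43St Cfsg.Agent.Lib.Helper43Gl
  Cfsg.Agent.Lib.Helper10BPExt4

variable {m : ℕ}

/-- a fourth point -/
theorem exists_fourth (i j k : Fin (m + 4)) : ∃ l : Fin (m + 4), i ≠ l ∧ j ≠ l ∧ k ≠ l := by
  classical
  have hc : 1 ≤ ((Finset.univ : Finset (Fin (m + 4))) \ {i, j, k}).card := by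
    have h1 := Finset.card_sdiff_add_card_inter (Finset.univ : Finset (Fin (m + 4))) {i, j, k}
    have h2 : ((Finset.univ : Finset (Fin (m + 4))) ∩ {i, j, k}).card ≤ 3 :=
      le_trans (Finset.card_le_card Finset.inter_subset_right) Finset.card_le_three
    rw [Finset.card_univ, Fintype.card_fin] at h1
    omega
  obtain ⟨l, hl⟩ := Finset.card_pos.1 hc
  simp only [Finset.mem_sdiff, Finset.mem_univ, true_and, Finset.mem_insert,
    Finset.mem_singleton, not_or] at hl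
  exact ⟨l, Ne.symm hl.1, Ne.symm hl.2.1, Ne.symm hl.2.2⟩

-- piece `ext3`
theorem ext3 (i j k : Fin (m + 4)) (hij : i ≠ j) (hik : i ≠ k) (hjk : j ≠ k) :
    ∃ σ : An m, (σ.1 0 = i ∧ σ.1 1 = j ∧ σ.1 2 = k) ∨ (σ.1 0 = j ∧ σ.1 1 = i ∧ σ.1 2 = k) := by
  obtain ⟨l, hil, hjl, hkl⟩ := exists_fourth i j k
  obtain ⟨τ, h0, h1, h2, _⟩ := exists_perm4 i j k l hij hkl hik hil hjk hjl
  rcases Int.units_eq_one_or (Equiv.Perm.sign τ) with hs | hs
  · exact ⟨⟨τ, Equiv.Perm.mem_alternatingGroup.2 hs⟩, Or.inl ⟨h0, h1, h2⟩⟩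
  · refine ⟨⟨τ * Equiv.swap 0 1, ?_⟩, Or.inr ⟨?_, ?_, ?_⟩⟩
    · rw [Equiv.Perm.mem_alternatingGroup, map_mul, hs, Equiv.Perm.sign_swap (ne01 m)]
      rfl
    · show τ (Equiv.swap 0 1 0) = j
      rw [Equiv.swap_apply_left, h1]
    · show τ (Equiv.swap 0 1 1) = i
      rw [Equiv.swap_apply_right, h0]
    · show τ (Equiv.swap 0 1 2) = k
      rw [Equiv.swap_apply_of_ne_of_ne (ne02 m).symm (ne12 m).symm, h2]

end Cfsg.Agent.Lib.Helper10BPExt3
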