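import Cfsg.Agent.Lib.Helper43GlDefs

set_option autoImplicit false

/-! Project 43, wave 3, pieces `ext2`, `ext3`, `ext4` (this file: `ext4` and the common tool). -/

namespace Cfsg.Agent.Lib.Helper10BPExt4

open Matrix Cfsg.Agent.Lib.Helper43BP Cfsg.Agent.Lib.Helper43St Cfsg.Agent.Lib.Helper43Gl

variable {m : ℕ}

/-- a permutation with four prescribed values -/
theorem exists_perm4 (i j k l : Fin (m + 4)) (hij : i ≠ j) (hkl : k ≠ l) (hik : i ≠ k) (hil : i ≠ l)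
    (hjk : j ≠ k) (hjl : j ≠ l) :
    ∃ τ : Equiv.Perm (Fin (m + 4)), τ 0 = i ∧ τ 1 = j ∧ τ 2 = k ∧ τ 3 = l := by
  have h4 := Equiv.Perm.isMultiplyPretransitive (Fin (m + 4)) 4
  let x : Fin 4 ↪ Fin (m + 4) := ⟨![0, 1, 2, 3], by
    intro a b hab
    fin_cases a <;> fin_cases b <;>
      simp_all [ne01 m, ne02 m, ne03 m, ne12 m, ne13 m, ne23 m, (ne01 m).symm, (ne02 m).symm,
        (ne03 m).symm, (ne12 m).symm, (ne13 m).symm, (ne23 m).symm]⟩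
  let y : Fin 4 ↪ Fin (m + 4) := ⟨![i, j, k, l], by
    intro a b hab
    fin_cases a <;> fin_cases b <;>
      simp_all [hij.symm, hkl.symm, hik.symm, hil.symm, hjk.symm, hjl.symm]⟩
  obtain ⟨τ, hτ⟩ := h4.exists_smul_eq x y
  exact ⟨τ, congrArg (fun f : Fin 4 ↪ Fin (m + 4) => f 0) hτ,
    congrArg (fun f : Fin 4 ↪ Fin (m + 4) => f 1) hτ,
    congrArg (fun f : Fin 4 ↪ Fin (m + 4) => f 2) hτ,
    congrArg (fun f : Fin 4 ↪ Fin (m + 4) => f 3) hτ⟩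

-- piece `ext4`
theorem ext4 (i j k l : Fin (m + 4)) (hij : i ≠ j) (hkl : k ≠ l) (hik : i ≠ k) (hil : i ≠ l)
    (hjk : j ≠ k) (hjl : j ≠ l) :
    ∃ σ : An m, σ.1 0 = i ∧ σ.1 1 = j ∧ ((σ.1 2 = k ∧ σ.1 3 = l) ∨ (σ.1 2 = l ∧ σ.1 3 = k)) := by
  obtain ⟨τ, h0, h1, h2, h3⟩ := exists_perm4 i j k l hij hkl hik hil hjk hjl
  rcases Int.units_eq_one_or (Equiv.Perm.sign τ) with hs | hs
  · exact ⟨⟨τ, Equiv.Perm.mem_alternatingGroup.2 hs⟩, h0, h1, Or.inl ⟨h2, h3⟩⟩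
  · refine ⟨⟨τ * Equiv.swap 2 3, ?_⟩, ?_, ?_, Or.inr ⟨?_, ?_⟩⟩
    · rw [Equiv.Perm.mem_alternatingGroup, map_mul, hs, Equiv.Perm.sign_swap (ne23 m)]
      rfl
    · show τ (Equiv.swap 2 3 0) = i
      rw [Equiv.swap_apply_of_ne_of_ne (ne02 m) (ne03 m), h0]
    · show τ (Equiv.swap 2 3 1) = j
      rw [Equiv.swap_apply_of_ne_of_ne (ne12 m) (ne13 m), h1]
    · show τ (Equiv.swap 2 3 2) = l
      rw [Equiv.swap_apply_left, h3]
    · show τ (Equiv.swap 2 3 3) = k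
      rw [Equiv.swap_apply_right, h2]

/-- two further points -/
theorem exists_two (i j : Fin (m + 4)) : ∃ k l : Fin (m + 4), k ≠ l ∧ i ≠ k ∧ i ≠ l ∧ j ≠ k ∧
    j ≠ l := by
  classical
  have hc : 2 ≤ ((Finset.univ : Finset (Fin (m + 4))) \ {i, j}).card := by
    have h1 := Finset.card_sdiff_add_card_inter (Finset.univ : Finset (Fin (m + 4))) {i, j}
    have h2 : ((Finset.univ : Finset (Fin (m + 4))) ∩ {i, j}).card ≤ 2 :=
      le_trans (Finset.card_le_card Finset.inter_subset_right) Finset.card_le_two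
    rw [Finset.card_univ, Fintype.card_fin] at h1
    omega
  obtain ⟨k, hk, l, hl, hkl⟩ := Finset.one_lt_card.1 hc
  simp only [Finset.mem_sdiff, Finset.mem_univ, true_and, Finset.mem_insert,
    Finset.mem_singleton, not_or] at hk hl
  exact ⟨k, l, hkl, Ne.symm hk.1, Ne.symm hl.1, Ne.symm hk.2, Ne.symm hl.2⟩

end Cfsg.Agent.Lib.Helper10BPExt4
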