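import Cfsg.Agent.Lib.Helper43GlDefs

set_option autoImplicit false

/-! Project 43, wave 3, piece `relTcard`. -/

namespace Cfsg.Agent.Lib.Helper10BPRelTcard

open Matrix Cfsg.Agent.Lib.Helper43BP Cfsg.Agent.Lib.Helper43St Cfsg.Agent.Lib.Helper43Gl

variable (m : ℕ) (F : Type*) [Field F] (a1 a2 : An m) (ζ : F)
  (sw : SpecialLinearGroup (Fin 3) F →* SpecialLinearGroup (Fin 3) F)

-- piece `relTcard`
theorem relT_card : (relT m F a1 a2 ζ sw).card ≤ 19 := by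
  classical
  unfold relT
  have hg : ({tv 0 1 1, hv 0 1 ζ, wv 0 1 1} : Finset (SpecialLinearGroup (Fin 3) F)).card ≤ 3 :=
    Finset.card_le_three
  have ha : ({a1, a2} : Finset (An m)).card ≤ 2 := Finset.card_le_two
  refine le_trans (Finset.card_union_le _ _) ?_
  refine le_trans (Nat.add_le_add_right (Finset.card_union_le _ _) _) ?_
  refine le_trans (Nat.add_le_add_right (Nat.add_le_add_right (Finset.card_union_le _ _) _) _) ?_
  have h1 := Finset.card_image_le (s := (({a1, a2} : Finset (An m)) ×ˢ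
    ({tv 0 1 1, hv 0 1 ζ, wv 0 1 1} : Finset (SpecialLinearGroup (Fin 3) F))))
    (f := fun z => (il z.1 * ir z.2 * (il z.1)⁻¹ * (ir z.2)⁻¹ : CP m F))
  have h2 := Finset.card_image_le
    (s := ({tv 0 1 1, hv 0 1 ζ, wv 0 1 1} : Finset (SpecialLinearGroup (Fin 3) F)))
    (f := fun z => (il (tauA m) * ir z * (il (tauA m))⁻¹ * (ir (sw z))⁻¹ : CP m F))
  have h3 := Finset.card_image_le
    (s := (({tv 0 1 1, hv 0 1 ζ, wv 0 1 1} : Finset (SpecialLinearGroup (Fin 3) F)) ×ˢ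
      ({tv 0 1 1, hv 0 1 ζ, wv 0 1 1} : Finset (SpecialLinearGroup (Fin 3) F))))
    (f := fun z => (ir z.1 * (il (sigA m) * ir z.2 * (il (sigA m))⁻¹) * (ir z.1)⁻¹ *
      (il (sigA m) * ir z.2 * (il (sigA m))⁻¹)⁻¹ : CP m F))
  rw [Finset.card_product] at h1 h3
  have h4 : ({a1, a2} : Finset (An m)).card *
      ({tv 0 1 1, hv 0 1 ζ, wv 0 1 1} : Finset (SpecialLinearGroup (Fin 3) F)).card ≤ 2 * 3 :=
    Nat.mul_le_mul ha hg
  have h5 : ({tv 0 1 1, hv 0 1 ζ, wv 0 1 1} : Finset (SpecialLinearGroup (Fin 3) F)).card *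
      ({tv 0 1 1, hv 0 1 ζ, wv 0 1 1} : Finset (SpecialLinearGroup (Fin 3) F)).card ≤ 3 * 3 :=
    Nat.mul_le_mul hg hg
  rw [Finset.card_singleton]
  omega

end Cfsg.Agent.Lib.Helper10BPRelTcard
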