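import Cfsg.Agent.Lib.Helper43GlDefs
import Cfsg.Agent.Lib.Helper6SL

set_option autoImplicit false

/-! Project 43, wave 3, piece `slgen`. -/

namespace Cfsg.Agent.Lib.Helper10BPSlgen

open Matrix Cfsg.Agent.Lib.Helper43BP Cfsg.Agent.Lib.Helper43St Cfsg.Agent.Lib.Helper43Gl

-- piece `slgen`
theorem sl_gen {n : ℕ} (hn : 2 ≤ n) (F : Type*) [Field F] :
    Subgroup.closure {g : SpecialLinearGroup (Fin n) F | ∃ i j t, i ≠ j ∧ g = tv i j t} = ⊤ := by
  have : Nontrivial (Fin n) := Fin.nontrivial_iff_two_le.2 hn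
  rw [eq_top_iff]
  intro A _
  refine Cfsg.Agent.Lib.Helper6SL.transvection_induction
    (fun A => A ∈ Subgroup.closure
      {g : SpecialLinearGroup (Fin n) F | ∃ i j t, i ≠ j ∧ g = tv i j t}) ?_
    (fun _ _ => mul_mem) A
  intro i j h c
  apply Subgroup.subset_closure
  refine ⟨i, j, c, h, ?_⟩
  unfold tv
  rw [dif_pos h]

end Cfsg.Agent.Lib.Helper10BPSlgen
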