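import Cfsg.Agent.Lib.Helper43GlDefs

set_option autoImplicit false

/-! Project 43, wave 3, piece `sw3`. -/

namespace Cfsg.Agent.Lib.Helper10BPSw3

open Matrix Cfsg.Agent.Lib.Helper43BP Cfsg.Agent.Lib.Helper43St Cfsg.Agent.Lib.Helper43Gl

/-- renumbering the coordinates -/
def reidx {n : ℕ} {F : Type*} [Field F] (e : Equiv.Perm (Fin n)) :
    SpecialLinearGroup (Fin n) F →* SpecialLinearGroup (Fin n) F where
  toFun g := ⟨g.1.submatrix e e, by rw [Matrix.det_submatrix_equiv_self]; exact g.2⟩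
  map_one' := by
    apply Subtype.ext
    show (1 : Matrix (Fin n) (Fin n) F).submatrix e e = 1
    exact Matrix.submatrix_one_equiv e
  map_mul' g h := by
    apply Subtype.ext
    show (g.1 * h.1).submatrix e e = g.1.submatrix e e * h.1.submatrix e e
    exact (Matrix.submatrix_mul_equiv g.1 h.1 e e e).symm

theorem reidx_tv {n : ℕ} {F : Type*} [Field F] (e : Equiv.Perm (Fin n)) (a b : Fin n) (hab : a ≠ b)
    (t : F) : reidx e (tv a b t) = tv (e.symm a) (e.symm b) t := by
  apply Subtype.ext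
  ext x y
  show (tv a b t : SpecialLinearGroup (Fin n) F) (e x) (e y) =
    (tv (e.symm a) (e.symm b) t : SpecialLinearGroup (Fin n) F) x y
  rw [tv_apply a b hab, tv_apply _ _ (fun h => hab (e.symm.injective h))]
  simp only [e.injective.eq_iff, Equiv.symm_apply_eq]

-- piece `sw3`
theorem exists_sw (F : Type*) [Field F] :
    ∃ sw : SpecialLinearGroup (Fin 3) F →* SpecialLinearGroup (Fin 3) F,
      ∀ a b t, a ≠ b → sw (tv a b t) = tv (Equiv.swap 0 1 a) (Equiv.swap 0 1 b) t := by
  refine ⟨reidx (Equiv.swap 0 1), ?_⟩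
  intro a b t hab
  rw [reidx_tv _ a b hab, Equiv.symm_swap]

end Cfsg.Agent.Lib.Helper10BPSw3
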