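import Cfsg.Agent.Lib.Helper43GlDefs

set_option autoImplicit false

namespace Cfsg.Agent.Lib.Helper11BPKof

theorem k2_of {A L P : Type*} [Group A] [Group L] [Group P] (θ : A →* P) (ι : L →* P)
    (SA : Set A) (SL : Set L) (h : ∀ a ∈ SA, ∀ g ∈ SL, Commute (θ a) (ι g)) :
    ∀ a ∈ Subgroup.closure SA, ∀ g ∈ Subgroup.closure SL, Commute (θ a) (ι g) := by
  intro a ha g hg
  induction ha using Subgroup.closure_induction with
  | mem a ha =>
    induction hg using Subgroup.closure_induction with
    | mem g hg => exact h a ha g hg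
    | one => rw [map_one]; exact Commute.one_right _
    | mul x y _ _ hx hy => rw [map_mul]; exact hx.mul_right hy
    | inv x _ hx => rw [map_inv]; exact hx.inv_right
  | one => rw [map_one]; exact Commute.one_left _
  | mul x y _ _ hx hy => rw [map_mul]; exact hx.mul_left hy
  | inv x _ hx => rw [map_inv]; exact hx.inv_left

theorem k3_of {L P : Type*} [Group L] [Group P] (ι : L →* P) (sw : L →* L) (c : P)
    (SL : Set L) (h : ∀ g ∈ SL, c * ι g * c⁻¹ = ι (sw g)) :
    ∀ g ∈ Subgroup.closure SL, c * ι g * c⁻¹ = ι (sw g) := by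
  intro g hg
  induction hg using Subgroup.closure_induction with
  | mem g hg => exact h g hg
  | one => simp
  | mul x y _ _ hx hy =>
    rw [map_mul, map_mul, map_mul, ← hx, ← hy]; group
  | inv x _ hx =>
    rw [map_inv, map_inv, map_inv, ← hx]; group

theorem k4_of {L P : Type*} [Group L] [Group P] (ι : L →* P) (c : P)
    (SL : Set L) (h : ∀ g ∈ SL, ∀ g' ∈ SL, Commute (ι g) (c * ι g' * c⁻¹)) :
    ∀ g ∈ Subgroup.closure SL, ∀ g' ∈ Subgroup.closure SL, Commute (ι g) (c * ι g' * c⁻¹) := by
  intro g hg g' hg'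
  induction hg using Subgroup.closure_induction with
  | mem g hg =>
    induction hg' using Subgroup.closure_induction with
    | mem g' hg' => exact h g hg g' hg'
    | one => simp
    | mul x y _ _ hx hy =>
      have : c * ι (x * y) * c⁻¹ = (c * ι x * c⁻¹) * (c * ι y * c⁻¹) := by
        rw [map_mul]; group
      rw [this]; exact hx.mul_right hy
    | inv x _ hx =>
      have : c * ι x⁻¹ * c⁻¹ = (c * ι x * c⁻¹)⁻¹ := by
        rw [map_inv]; group
      rw [this]; exact hx.inv_right
  | one => rw [map_one]; exact Commute.one_left _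
  | mul x y _ _ hx hy => rw [map_mul]; exact hx.mul_left hy
  | inv x _ hx => rw [map_inv]; exact hx.inv_left

end Cfsg.Agent.Lib.Helper11BPKof
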