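import Cfsg.Agent.Lib.Helper43GlDefs
import Cfsg.Agent.Lib.Helper11BPKof

set_option autoImplicit false

namespace Cfsg.Agent.Lib.Helper11BPRelTgsys

open Matrix Cfsg.Agent.Lib.Helper43BP Cfsg.Agent.Lib.Helper43St Cfsg.Agent.Lib.Helper43Gl
open Cfsg.Agent.Lib.Helper11BPKof

section T

variable (m : ℕ) (F : Type*) [Field F] (a1 a2 : An m) (ζ : F)
  (sw : SpecialLinearGroup (Fin 3) F →* SpecialLinearGroup (Fin 3) F)

theorem mem1 : (il (cA m) * (ir (p3 F 0 1 2))⁻¹ : CP m F) ∈ relT m F a1 a2 ζ sw := by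
  classical
  unfold relT
  simp only [Finset.mem_union, Finset.mem_singleton, true_or]

theorem mem2 (a : An m) (ha : a ∈ ({a1, a2} : Set (An m))) (g : SpecialLinearGroup (Fin 3) F)
    (hg : g ∈ gs F ζ) :
    (il a * ir g * (il a)⁻¹ * (ir g)⁻¹ : CP m F) ∈ relT m F a1 a2 ζ sw := by
  classical
  unfold relT
  simp only [Finset.mem_union]
  left; left; right
  rw [Finset.mem_image]
  refine ⟨(a, g), ?_, rfl⟩
  rw [Finset.mem_product]
  constructor
  · simpa using ha
  · simpa [gs] using hg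

theorem mem3 (g : SpecialLinearGroup (Fin 3) F) (hg : g ∈ gs F ζ) :
    (il (tauA m) * ir g * (il (tauA m))⁻¹ * (ir (sw g))⁻¹ : CP m F) ∈ relT m F a1 a2 ζ sw := by
  classical
  unfold relT
  simp only [Finset.mem_union]
  left; right
  rw [Finset.mem_image]
  refine ⟨g, ?_, rfl⟩
  simpa [gs] using hg

theorem mem4 (g g' : SpecialLinearGroup (Fin 3) F) (hg : g ∈ gs F ζ) (hg' : g' ∈ gs F ζ) :
    (ir g * (il (sigA m) * ir g' * (il (sigA m))⁻¹) * (ir g)⁻¹ *
    (il (sigA m) * ir g' * (il (sigA m))⁻¹)⁻¹ : CP m F) ∈ relT m F a1 a2 ζ sw := by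
  classical
  unfold relT
  simp only [Finset.mem_union]
  right
  rw [Finset.mem_image]
  refine ⟨(g, g'), ?_, rfl⟩
  rw [Finset.mem_product]
  constructor
  · simpa [gs] using hg
  · simpa [gs] using hg'

-- piece `relTgsys`
theorem relT_gsys
    (hζ : ∀ t, tv 0 1 t ∈ Subgroup.closure (gs F ζ) ∧ tv 1 0 t ∈ Subgroup.closure (gs F ζ))
    (hsw : ∀ a b t, a ≠ b → sw (tv a b t) = tv (Equiv.swap 0 1 a) (Equiv.swap 0 1 b) t)
    (ha : ∀ a : An m, a.1 0 = 0 → a.1 1 = 1 → a ∈ Subgroup.closure ({a1, a2} : Set (An m)))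
    (pm : An m →* SpecialLinearGroup (Fin (m + 4)) F)
    (hpm : ∀ (σ : An m) i j t, i ≠ j → pm σ * tv i j t * (pm σ)⁻¹ = tv (σ.1 i) (σ.1 j) t)
    (E : SpecialLinearGroup (Fin 3) F →* SpecialLinearGroup (Fin (m + 4)) F)
    (hE : ∀ a b t, a ≠ b → E (tv a b t) =
        tv ((![0, 1, 2] : Fin 3 → Fin (m + 4)) a) ((![0, 1, 2] : Fin 3 → Fin (m + 4)) b) t)
    (hker : ∀ z ∈ relT m F a1 a2 ζ sw, Monoid.Coprod.lift pm E z = 1) :
    ∃ G : GSys m F (Monoid.Coprod (An m) (SpecialLinearGroup (Fin 3) F) ⧸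
        Subgroup.normalClosure (↑(relT m F a1 a2 ζ sw) : Set _)),
      ∀ z, G.π (QuotientGroup.mk z) = Monoid.Coprod.lift pm E z := by
  set N : Subgroup (CP m F) := Subgroup.normalClosure (↑(relT m F a1 a2 ζ sw) : Set _) with hN
  have hone : ∀ z ∈ relT m F a1 a2 ζ sw, (QuotientGroup.mk' N) z = 1 := by
    intro z hz
    exact (QuotientGroup.eq_one_iff z).2 (Subgroup.subset_normalClosure hz)
  have hle : N ≤ (Monoid.Coprod.lift pm E).ker :=
    Subgroup.normalClosure_le_normal (fun z hz => hker z hz)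
  let θ : An m →* CP m F ⧸ N := (QuotientGroup.mk' N).comp Monoid.Coprod.inl
  let ι : SpecialLinearGroup (Fin 3) F →* CP m F ⧸ N := (QuotientGroup.mk' N).comp Monoid.Coprod.inr
  have hθ : ∀ a, θ a = QuotientGroup.mk' N (il a) := fun a => rfl
  have hι : ∀ a, ι a = QuotientGroup.mk' N (ir a) := fun a => rfl
  have c2 : ∀ a ∈ ({a1, a2} : Set (An m)), ∀ g ∈ gs F ζ, Commute (θ a) (ι g) := by
    intro a haa g hg
    have := hone _ (mem2 m F a1 a2 ζ sw a haa g hg)
    rw [map_mul, map_mul, map_mul, map_inv, map_inv, ← hθ, ← hι] at this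
    unfold Commute SemiconjBy
    have h2 := mul_inv_eq_one.1 this
    exact mul_inv_eq_iff_eq_mul.1 h2
  have c3 : ∀ g ∈ gs F ζ, θ (tauA m) * ι g * (θ (tauA m))⁻¹ = ι (sw g) := by
    intro g hg
    have := hone _ (mem3 m F a1 a2 ζ sw g hg)
    rw [map_mul, map_mul, map_mul, map_inv, map_inv, ← hθ, ← hι, ← hι] at this
    exact mul_inv_eq_one.1 this
  have c4 : ∀ g ∈ gs F ζ, ∀ g' ∈ gs F ζ,
      Commute (ι g) (θ (sigA m) * ι g' * (θ (sigA m))⁻¹) := by
    intro g hg g' hg'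
    have := hone _ (mem4 m F a1 a2 ζ sw g g' hg hg')
    rw [map_mul, map_mul, map_mul, map_inv, map_inv, map_mul, map_mul, map_inv,
      ← hθ, ← hι, ← hι] at this
    unfold Commute SemiconjBy
    have h2 := mul_inv_eq_one.1 this
    exact mul_inv_eq_iff_eq_mul.1 h2
  have C2 := k2_of θ ι _ _ c2
  have C3 := k3_of ι sw _ _ c3
  have C4 := k4_of ι _ _ c4
  refine ⟨{ θ := θ, ι := ι, π := QuotientGroup.lift N (Monoid.Coprod.lift pm E) hle, sw := sw,
            hsw := hsw, k1 := ?_, k2 := ?_, k3 := ?_, k4 := ?_, k4' := ?_, gen := ?_,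
            hπι := ?_, hπθ := ?_ }, ?_⟩
  · have := hone _ (mem1 m F a1 a2 ζ sw)
    rw [map_mul, map_inv, ← hθ, ← hι] at this
    exact mul_inv_eq_one.1 this
  · intro a h0 h1 t
    exact C2 a (ha a h0 h1) _ (hζ t).1
  · intro t
    rw [C3 _ (hζ t).1, hsw 0 1 t (by decide)]
    simp
  · intro s t
    exact C4 _ (hζ s).1 _ (hζ t).1
  · intro s t
    exact C4 _ (hζ s).1 _ (hζ t).2
  · have h1 : Subgroup.closure (Set.range (Monoid.Coprod.inl : An m →* CP m F) ∪
        Set.range (Monoid.Coprod.inr : SpecialLinearGroup (Fin 3) F →* CP m F)) = ⊤ :=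
      Monoid.Coprod.closure_range_inl_union_inr
    have h2 := congrArg (Subgroup.map (QuotientGroup.mk' N)) h1
    rw [MonoidHom.map_closure, Subgroup.map_top_of_surjective _ (QuotientGroup.mk'_surjective N),
      Set.image_union, ← Set.range_comp, ← Set.range_comp] at h2
    exact h2
  · intro t
    have := hE 0 1 t (by decide)
    simp only [Matrix.cons_val_zero, Matrix.cons_val_one] at this
    rw [← this]
    show Monoid.Coprod.lift pm E (Monoid.Coprod.inr (tv 0 1 t)) = _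
    rw [Monoid.Coprod.lift_apply_inr]
  · intro σ i j t hij
    have : QuotientGroup.lift N (Monoid.Coprod.lift pm E) hle (θ σ) = pm σ := by
      show Monoid.Coprod.lift pm E (Monoid.Coprod.inl σ) = _
      rw [Monoid.Coprod.lift_apply_inl]
    rw [this]
    exact hpm σ i j t hij
  · intro z
    rfl

end T

end Cfsg.Agent.Lib.Helper11BPRelTgsys
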