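import Cfsg.Agent.Lib.Helper43GlDefs

set_option autoImplicit false

namespace Cfsg.Agent.Lib.Helper11BPTvcomm

open Matrix Cfsg.Agent.Lib.Helper43BP Cfsg.Agent.Lib.Helper43St Cfsg.Agent.Lib.Helper43Gl

theorem tv_comm {n : ℕ} {F : Type*} [Field F] (i j k l : Fin n) (hjk : j ≠ k) (hil : i ≠ l)
    (s t : F) : Commute (tv i j s) (tv k l t) := by
  by_cases hij : i = j
  · have : (tv i j s : SpecialLinearGroup (Fin n) F) = 1 := by
      unfold tv; rw [dif_neg (by simpa using hij)]
    rw [this]; exact Commute.one_left _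
  by_cases hkl : k = l
  · have : (tv k l t : SpecialLinearGroup (Fin n) F) = 1 := by
      unfold tv; rw [dif_neg (by simpa using hkl)]
    rw [this]; exact Commute.one_right _
  have key : ((tv i j s : SpecialLinearGroup (Fin n) F) : Matrix (Fin n) (Fin n) F) *
      ((tv k l t : SpecialLinearGroup (Fin n) F) : Matrix (Fin n) (Fin n) F) =
      ((tv k l t : SpecialLinearGroup (Fin n) F) : Matrix (Fin n) (Fin n) F) *
      ((tv i j s : SpecialLinearGroup (Fin n) F) : Matrix (Fin n) (Fin n) F) := by
    rw [tv_val i j hij, tv_val k l hkl]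
    rw [add_mul, mul_add, mul_add, add_mul, mul_add, mul_add,
      Matrix.single_mul_single_of_ne _ _ _ _ hjk, Matrix.single_mul_single_of_ne _ _ _ _ hil.symm]
    simp only [one_mul, mul_one, add_zero]
    abel
  exact Subtype.ext key

end Cfsg.Agent.Lib.Helper11BPTvcomm
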