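import Cfsg.Agent.Lib.Helper43GlDefs
import Cfsg.Agent.Lib.Helper11BPKof
import Cfsg.Agent.Lib.Helper11BPTvcomm

set_option autoImplicit false

namespace Cfsg.Agent.Lib.Helper11BPRelTker

open Matrix Cfsg.Agent.Lib.Helper43BP Cfsg.Agent.Lib.Helper43St Cfsg.Agent.Lib.Helper43Gl
open Cfsg.Agent.Lib.Helper11BPKof Cfsg.Agent.Lib.Helper11BPTvcomm

theorem tau0 (m : ℕ) : (tauA m).1 0 = 1 := by
  show (Equiv.swap 0 1 * Equiv.swap 2 3 : Equiv.Perm (Fin (m+4))) 0 = 1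
  rw [Equiv.Perm.mul_apply, Equiv.swap_apply_of_ne_of_ne (ne02 m) (ne03 m), Equiv.swap_apply_left]

theorem tau1 (m : ℕ) : (tauA m).1 1 = 0 := by
  show (Equiv.swap 0 1 * Equiv.swap 2 3 : Equiv.Perm (Fin (m+4))) 1 = 0
  rw [Equiv.Perm.mul_apply, Equiv.swap_apply_of_ne_of_ne (ne12 m) (ne13 m), Equiv.swap_apply_right]

theorem sig0 (m : ℕ) : (sigA m).1 0 = 2 := by
  show (Equiv.swap 0 2 * Equiv.swap 1 3 : Equiv.Perm (Fin (m+4))) 0 = 2
  rw [Equiv.Perm.mul_apply, Equiv.swap_apply_of_ne_of_ne (ne01 m) (ne03 m), Equiv.swap_apply_left]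

theorem sig1 (m : ℕ) : (sigA m).1 1 = 3 := by
  show (Equiv.swap 0 2 * Equiv.swap 1 3 : Equiv.Perm (Fin (m+4))) 1 = 3
  rw [Equiv.Perm.mul_apply, Equiv.swap_apply_left,
    Equiv.swap_apply_of_ne_of_ne (ne03 m).symm (ne23 m).symm]

/-- the root elements of the `SL_2` on the first two coordinates -/
def rt (F : Type*) [Field F] : Set (SpecialLinearGroup (Fin 3) F) :=
  {g | ∃ t, g = tv 0 1 t ∨ g = tv 1 0 t}

theorem tv01_mem (F : Type*) [Field F] (t : F) : tv 0 1 t ∈ Subgroup.closure (rt F) :=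
  Subgroup.subset_closure ⟨t, Or.inl rfl⟩

theorem tv10_mem (F : Type*) [Field F] (t : F) : tv 1 0 t ∈ Subgroup.closure (rt F) :=
  Subgroup.subset_closure ⟨t, Or.inr rfl⟩

theorem wv_mem (F : Type*) [Field F] (t : F) : wv 0 1 t ∈ Subgroup.closure (rt F) := by
  unfold wv
  exact mul_mem (mul_mem (tv01_mem F _) (tv10_mem F _)) (tv01_mem F _)

theorem hv_mem (F : Type*) [Field F] (t : F) : hv 0 1 t ∈ Subgroup.closure (rt F) := by
  unfold hv
  exact mul_mem (wv_mem F _) (inv_mem (wv_mem F _))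

theorem gs_le (F : Type*) [Field F] (ζ : F) (g : SpecialLinearGroup (Fin 3) F)
    (hg : g = tv 0 1 1 ∨ g = hv 0 1 ζ ∨ g = wv 0 1 1) : g ∈ Subgroup.closure (rt F) := by
  rcases hg with rfl | rfl | rfl
  · exact tv01_mem F _
  · exact hv_mem F _
  · exact wv_mem F _

section T

variable (m : ℕ) (F : Type*) [Field F] (a1 a2 : An m) (ζ : F)
  (sw : SpecialLinearGroup (Fin 3) F →* SpecialLinearGroup (Fin 3) F)

-- piece `relTker`
theorem relT_ker (hζ : ζ ≠ 0)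
    (hsw : ∀ a b t, a ≠ b → sw (tv a b t) = tv (Equiv.swap 0 1 a) (Equiv.swap 0 1 b) t)
    (h1 : a1.1 0 = 0 ∧ a1.1 1 = 1) (h2 : a2.1 0 = 0 ∧ a2.1 1 = 1)
    (pm : An m →* SpecialLinearGroup (Fin (m + 4)) F)
    (hpm : ∀ (σ : An m) i j t, i ≠ j → pm σ * tv i j t * (pm σ)⁻¹ = tv (σ.1 i) (σ.1 j) t)
    (hpc : pm (cA m) = p3 F 0 1 2)
    (E : SpecialLinearGroup (Fin 3) F →* SpecialLinearGroup (Fin (m + 4)) F)
    (hE : ∀ a b t, a ≠ b → E (tv a b t) =
        tv ((![0, 1, 2] : Fin 3 → Fin (m + 4)) a) ((![0, 1, 2] : Fin 3 → Fin (m + 4)) b) t) :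
    ∀ z ∈ relT m F a1 a2 ζ sw, Monoid.Coprod.lift pm E z = 1 := by
  classical
  have E01 : ∀ t, E (tv 0 1 t) = tv 0 1 t := fun t => by
    have := hE 0 1 t (by decide)
    simpa using this
  have E10 : ∀ t, E (tv 1 0 t) = tv 1 0 t := fun t => by
    have := hE 1 0 t (by decide)
    simpa using this
  have E12 : ∀ t, E (tv 1 2 t) = tv 1 2 t := fun t => by
    have := hE 1 2 t (by decide)
    simpa using this
  have E21 : ∀ t, E (tv 2 1 t) = tv 2 1 t := fun t => by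
    have := hE 2 1 t (by decide)
    simpa using this
  have Ep3 : E (p3 F 0 1 2) = p3 F 0 1 2 := by
    unfold p3 hv wv
    simp only [map_mul, map_inv, E01, E10, E12, E21]
  have S01 : ∀ t, sw (tv 0 1 t) = tv 1 0 t := fun t => by
    have := hsw 0 1 t (by decide)
    simpa using this
  have S10 : ∀ t, sw (tv 1 0 t) = tv 0 1 t := fun t => by
    have := hsw 1 0 t (by decide)
    simpa using this
  -- the three families
  have C2 : ∀ a : An m, a.1 0 = 0 → a.1 1 = 1 → ∀ g ∈ Subgroup.closure (rt F),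
      pm a * E g * (pm a)⁻¹ = E g := by
    intro a h0 h1 g hg
    refine k3_of E (MonoidHom.id _) (pm a) (rt F) ?_ g hg
    rintro _ ⟨t, rfl | rfl⟩
    · rw [E01, hpm a 0 1 t (ne01 m), h0, h1]; exact (E01 t).symm
    · rw [E10, hpm a 1 0 t (ne01 m).symm, h0, h1]; exact (E10 t).symm
  have C3 : ∀ g ∈ Subgroup.closure (rt F),
      pm (tauA m) * E g * (pm (tauA m))⁻¹ = E (sw g) := by
    refine k3_of E sw (pm (tauA m)) (rt F) ?_
    rintro _ ⟨t, rfl | rfl⟩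
    · rw [E01, hpm _ 0 1 t (ne01 m), tau0, tau1, S01, E10]
    · rw [E10, hpm _ 1 0 t (ne01 m).symm, tau0, tau1, S10, E01]
  have C4 : ∀ g ∈ Subgroup.closure (rt F), ∀ g' ∈ Subgroup.closure (rt F),
      Commute (E g) (pm (sigA m) * E g' * (pm (sigA m))⁻¹) := by
    refine k4_of E (pm (sigA m)) (rt F) ?_
    rintro _ ⟨s, rfl | rfl⟩ _ ⟨t, rfl | rfl⟩
    · rw [E01, E01, hpm _ 0 1 t (ne01 m), sig0, sig1]
      exact tv_comm _ _ _ _ (ne12 m) (ne03 m) _ _
    · rw [E01, E10, hpm _ 1 0 t (ne01 m).symm, sig0, sig1]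
      exact tv_comm _ _ _ _ (ne13 m) (ne02 m) _ _
    · rw [E10, E01, hpm _ 0 1 t (ne01 m), sig0, sig1]
      exact tv_comm _ _ _ _ (ne02 m) (ne13 m) _ _
    · rw [E10, E10, hpm _ 1 0 t (ne01 m).symm, sig0, sig1]
      exact tv_comm _ _ _ _ (ne03 m) (ne12 m) _ _
  intro z hz
  unfold relT at hz
  simp only [Finset.mem_union, Finset.mem_singleton, Finset.mem_image, Finset.mem_product,
    Finset.mem_insert, Prod.exists] at hz
  rcases hz with ((rfl | ⟨a, g, ⟨ha, hg⟩, rfl⟩) | ⟨g, hg, rfl⟩) | ⟨g, g', ⟨hg, hg'⟩, rfl⟩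
  · simp only [il, ir, map_mul, map_inv, Monoid.Coprod.lift_apply_inl,
      Monoid.Coprod.lift_apply_inr]
    rw [hpc, Ep3, mul_inv_cancel]
  · simp only [il, ir, map_mul, map_inv, Monoid.Coprod.lift_apply_inl,
      Monoid.Coprod.lift_apply_inr]
    have hg := gs_le F ζ g hg
    rcases ha with rfl | rfl
    · rw [C2 _ h1.1 h1.2 g hg, mul_inv_cancel]
    · rw [C2 _ h2.1 h2.2 g hg, mul_inv_cancel]
  · simp only [il, ir, map_mul, map_inv, Monoid.Coprod.lift_apply_inl,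
      Monoid.Coprod.lift_apply_inr]
    rw [C3 g (gs_le F ζ g hg), mul_inv_cancel]
  · simp only [il, ir, map_mul, map_inv, Monoid.Coprod.lift_apply_inl,
      Monoid.Coprod.lift_apply_inr]
    have := C4 g (gs_le F ζ g hg) g' (gs_le F ζ g' hg')
    rw [this.eq, mul_assoc _ (E g), mul_inv_cancel, mul_one, mul_inv_cancel]

end T

end Cfsg.Agent.Lib.Helper11BPRelTker
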