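import Cfsg.Agent.Lib.Helper23CT0

set_option autoImplicit false

/-! PROJECT 230 (Curtis-Tits), piece W1: the Curtis-Tits group carries a `CTS` structure. -/

namespace Cfsg.Agent.Lib.Helper11CTW1

open Subgroup Cfsg.Lie Cfsg.Lie.ChevalleyDatum Cfsg.Agent.Lib.Helper22ChevBasic Cfsg.Agent.Lib.Helper23CT

variable {D : ChevalleyDatum} (hD : Std D) (K : Type*) [Field K]

/-- W1, from the instance of W0 (`kappa`) for `F = FreeGroup.lift (f0 hD K)` -/
theorem cts_pres_of
    (hk : ∃ ν : D.CurtisTitsGroup K →* GL D.Idx K, ∀ i j r t, D.InRankTwoSub i j r →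
      ν (PresentedGroup.mk (D.curtisTitsRels K) (D.stX r t))
        = FreeGroup.lift (Cfsg.Agent.Lib.Helper23St.f0 hD K) (D.stX r t)) :
    ∃ C : CTS hD K (D.CurtisTitsGroup K),
    ∀ r t, C.x r t = PresentedGroup.mk (D.curtisTitsRels K) (D.stX r t) := by
  obtain ⟨ν, hν⟩ := hk
  refine ⟨{ x := fun r t => PresentedGroup.mk (D.curtisTitsRels K) (D.stX r t)
            θ := ν
            θx := ?_
            add := ?_
            rel := ?_ }, fun r t => rfl⟩
  · intro i j r hr t
    rw [hν i j r t hr, Cfsg.Agent.Lib.Helper23St.lift_stX]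
  · intro i j r hr t u
    rw [← map_mul]
    apply PresentedGroup.mk_eq_mk_of_mul_inv_mem
    exact Or.inl (Or.inl (Or.inr ⟨i, j, r, t, u, hr, rfl⟩))
  · intro i j r s hr hs h1 h2 t u
    have h : PresentedGroup.mk (D.curtisTitsRels K)
        ((D.stX s u)⁻¹ * (D.stX r t)⁻¹ * D.stX s u * D.stX r t) =
        PresentedGroup.mk (D.curtisTitsRels K) (D.stWord (D.commWord K r s t u)) := by
      apply PresentedGroup.mk_eq_mk_of_mul_inv_mem
      exact Or.inl (Or.inr ⟨i, j, r, s, t, u, hr, hs, h1, h2, rfl⟩)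
    have e : ((D.commWord K r s t u).map
        fun p => PresentedGroup.mk (D.curtisTitsRels K) (D.stX p.1 p.2)).prod =
        PresentedGroup.mk (D.curtisTitsRels K) (D.stWord (D.commWord K r s t u)) := by
      unfold stWord
      rw [map_list_prod, List.map_map]
      rfl
    rw [e, ← h]
    simp only [map_mul, map_inv]
    group

end Cfsg.Agent.Lib.Helper11CTW1
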