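import Cfsg.Agent.Lib.Helper40Fusion

set_option autoImplicit false

namespace Cfsg.Agent.Lib.Helper14Control

open Subgroup Cfsg.Agent.Lib.Helper40Sylow Cfsg.Agent.Lib.Helper40Alperin
  Cfsg.Agent.Lib.Helper40Fusion

variable {G : Type*} [Group G]

/-- right conjugation by `g` on `E` is induced by an element of `N` -/
def Phi (N : Subgroup G) (E : Subgroup G) (g : G) : Prop :=
  ∃ x ∈ N, ∀ a ∈ E, g⁻¹ * a * g = x⁻¹ * a * x

theorem Phi_congr {N E : Subgroup G} {g h : G} (hgh : ∀ a ∈ E, g⁻¹ * a * g = h⁻¹ * a * h)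
    (H : Phi N E h) : Phi N E g := by
  obtain ⟨x, hx, hxa⟩ := H
  exact ⟨x, hx, fun a ha => (hgh a ha).trans (hxa a ha)⟩

theorem Phi_of_mem {N E : Subgroup G} {g : G} (hg : g ∈ N) : Phi N E g := ⟨g, hg, fun _ _ => rfl⟩

theorem Phi_fclosed (N : Subgroup G) : FClosed (Phi N) where
  one := fun _ => ⟨1, one_mem _, fun _ _ => rfl⟩
  mono := fun ⟨x, hx, h⟩ hD => ⟨x, hx, fun a ha => h a (hD ha)⟩
  trans := by
    rintro D g h ⟨x, hx, hxa⟩ ⟨y, hy, hya⟩
    refine ⟨x * y, mul_mem hx hy, ?_⟩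
    intro a ha
    have h1 := hya (g⁻¹ * a * g) (conj_mem_rj ha)
    have e1 : (g * h)⁻¹ * a * (g * h) = h⁻¹ * (g⁻¹ * a * g) * h := by group
    rw [e1, h1, hxa a ha]
    group
  symm := by
    rintro D g ⟨x, hx, hxa⟩
    refine ⟨x⁻¹, inv_mem hx, ?_⟩
    intro b hb
    rw [mem_rj] at hb
    have h1 := hxa _ hb
    have e1 : g⁻¹ * (g * b * g⁻¹) * g = b := by group
    rw [e1] at h1
    have e2 : g⁻¹⁻¹ * b * g⁻¹ = g * b * g⁻¹ := by group
    rw [e2]
    conv_rhs => rw [h1]
    group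

variable {p : ℕ} [Finite G] [Fact p.Prime]

/-- **From local control to global control.** -/
theorem control_of_local (S : Sylow p G) (𝒲 : Subgroup G → Subgroup G) (adm : Subgroup G → Prop)
    (hW_le : ∀ R : Subgroup G, R ≤ S → 𝒲 R ≤ R)
    (hW_ne : ∀ R : Subgroup G, R ≤ S → adm R → 𝒲 R ≠ ⊥)
    (hW_eq : ∀ R : Subgroup G, R ≤ S → ∀ g : G, rj g R ≤ S → 𝒲 (rj g R) = rj g (𝒲 R))
    (hadm : ∀ R : Subgroup G, R ≤ S → adm R → ∀ (g : G) (R' : Subgroup G), rj g R ≤ R' → R' ≤ S →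
      adm R')
    (hadm_norm : ∀ U : Subgroup G, U ≤ S → U ≠ ⊥ →
      adm ((S : Subgroup G) ⊓ Subgroup.normalizer (U : Set G)))
    (LC : ∀ Y : Subgroup G, Y ≤ S → Y ≠ ⊥ → FullyNorm p (S : Subgroup G) Y →
      ∀ E : Subgroup G, E ≤ (S : Subgroup G) ⊓ Subgroup.normalizer (Y : Set G) →
      ∀ h ∈ Subgroup.normalizer (Y : Set G), rj h E ≤ S →
      ∃ n ∈ Subgroup.normalizer
          ((𝒲 ((S : Subgroup G) ⊓ Subgroup.normalizer (Y : Set G)) : Subgroup G) : Set G),
        ∀ a ∈ E, h⁻¹ * a * h = n⁻¹ * a * n) :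
    ∀ D : Subgroup G, D ≤ (S : Subgroup G) → ∀ g : G, rj g D ≤ (S : Subgroup G) →
      Phi (Subgroup.normalizer ((𝒲 S : Subgroup G) : Set G)) D g := by
  set N := Subgroup.normalizer ((𝒲 S : Subgroup G) : Set G) with hN
  have hΦ := Phi_fclosed N
  apply fusion_induction S hΦ
  intro T₀ hT₀
  obtain ⟨k, hkS, hfull, -⟩ := exists_fullyNorm_conj S T₀ hT₀
  refine ⟨k, hkS, hfull, ?_⟩
  intro IH
  set U := rj k T₀ with hU
  have hcardU : Nat.card U = Nat.card T₀ := card_rj _ _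
  rw [← hcardU] at IH
  -- the climbing statement
  have climb : ∀ j : ℕ, ∀ R : Subgroup G, R ≤ S → adm R →
      Nat.card (S : Subgroup G) - Nat.card R = j →
      ∀ E : Subgroup G, E ≤ R → Nat.card U ≤ Nat.card E →
      ∀ n ∈ Subgroup.normalizer ((𝒲 R : Subgroup G) : Set G), rj n E ≤ S → Phi N E n := by
    intro j
    induction j using Nat.strong_induction_on with
    | _ j ih =>
    intro R hRS hadmR hj E hER hUE n hn hnE
    by_cases hRS' : R = S
    · rw [hRS'] at hn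
      exact Phi_of_mem hn
    · have hlt : R < S := lt_of_le_of_ne hRS hRS'
      set Y := 𝒲 R with hY
      have hYR : Y ≤ R := hW_le R hRS
      have hYne : Y ≠ ⊥ := hW_ne R hRS hadmR
      set T := (S : Subgroup G) ⊓ Subgroup.normalizer (Y : Set G) with hT
      have hNRT : (S : Subgroup G) ⊓ Subgroup.normalizer (R : Set G) ≤ T := by
        refine le_inf inf_le_left ?_
        intro g hg
        have h1 : rj g R = R := mem_normalizer_iff_rj.mp hg.2
        have h2 := hW_eq R hRS g (h1.le.trans hRS)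
        rw [h1] at h2
        exact mem_normalizer_iff_rj.mpr h2.symm
      have hRT : R ≤ T := (le_inf hRS Subgroup.le_normalizer).trans hNRT
      have hcardRT : Nat.card R < Nat.card T :=
        (card_lt_card_inf_normalizer S.2 hlt).trans_le (Subgroup.card_le_of_le hNRT)
      obtain ⟨k₁, hk₁S, hk₁full, hk₁T⟩ := exists_fullyNorm_conj S Y (hYR.trans hRS)
      set Y₁ := rj k₁ Y with hY₁
      set R₂ := (S : Subgroup G) ⊓ Subgroup.normalizer (Y₁ : Set G) with hR₂
      have hcardE : Nat.card E ≤ Nat.card R := Subgroup.card_le_of_le hER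
      have hΦT : Phi N T k₁ := IH T inf_le_left (by omega) k₁ (hk₁T.trans inf_le_left)
      set n' := k₁⁻¹ * n * k₁ with hn'
      have hn'N : n' ∈ Subgroup.normalizer (Y₁ : Set G) := by
        rw [hY₁, normalizer_rj]
        exact conj_mem_rj hn
      have hE'R₂ : rj k₁ E ≤ R₂ := (rj_mono (hER.trans hRT)).trans hk₁T
      have hnET : rj n E ≤ T := by
        refine le_inf hnE ?_
        intro y hy
        rw [mem_rj] at hy
        have h1 : n * y * n⁻¹ ∈ Subgroup.normalizer (Y : Set G) := (hER.trans hRT hy).2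
        have h2 := mul_mem (mul_mem (inv_mem hn) h1) hn
        have e : n⁻¹ * (n * y * n⁻¹) * n = y := by group
        rwa [e] at h2
      have hcomm : k₁ * n' = n * k₁ := by rw [hn']; group
      have hrj : rj n' (rj k₁ E) = rj k₁ (rj n E) := by
        rw [← rj_mul, ← rj_mul, hcomm]
      have hn'E : rj n' (rj k₁ E) ≤ S := by
        rw [hrj]
        exact ((rj_mono hnET).trans hk₁T).trans inf_le_left
      have hY₁ne : Y₁ ≠ ⊥ := by
        intro h
        apply hYne
        have h1 : Nat.card Y = 1 := by rw [← card_rj k₁ Y, ← hY₁, h]; exact Subgroup.card_bot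
        exact Subgroup.card_eq_one.mp h1
      obtain ⟨n₃, hn₃, hn₃a⟩ := LC Y₁ hk₁S hY₁ne hk₁full (rj k₁ E) hE'R₂ n' hn'N hn'E
      have hadmR₂ : adm R₂ := hadm R hRS hadmR k₁ R₂ ((rj_mono hRT).trans hk₁T) inf_le_left
      have hcardR₂ : Nat.card T ≤ Nat.card R₂ := by
        rw [← card_rj k₁ T]
        exact Subgroup.card_le_of_le hk₁T
      have hcardR₂S : Nat.card R₂ ≤ Nat.card (S : Subgroup G) := Subgroup.card_le_of_le inf_le_left
      have h3 : Phi N (rj k₁ E) n₃ := by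
        refine ih (Nat.card (S : Subgroup G) - Nat.card R₂) (by omega) R₂ inf_le_left hadmR₂ rfl
          (rj k₁ E) hE'R₂ (hUE.trans (card_rj k₁ E).ge) n₃ hn₃ ?_
        rw [← rj_congr hn₃a]
        exact hn'E
      have h4 : Phi N (rj k₁ E) n' := Phi_congr hn₃a h3
      have h5 : Phi N E k₁ := hΦ.mono hΦT (hER.trans hRT)
      have h6 : Phi N E (k₁ * n') := hΦ.trans h5 h4
      have h7 : Phi N (rj k₁ (rj n E)) k₁⁻¹ := hΦ.symm (hΦ.mono hΦT hnET)
      have h8 : Phi N E (k₁ * n' * k₁⁻¹) := by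
        refine hΦ.trans h6 ?_
        rw [rj_mul, hrj]
        exact h7
      have e : k₁ * n' * k₁⁻¹ = n := by rw [hn']; group
      rwa [e] at h8
  intro m hm
  by_cases hUbot : U = ⊥
  · refine ⟨1, one_mem _, ?_⟩
    intro a ha
    rw [hUbot, Subgroup.mem_bot] at ha
    rw [ha]; group
  · have hmU : rj m U = U := mem_normalizer_iff_rj.mp hm
    obtain ⟨n, hn, hna⟩ := LC U hkS hUbot hfull U (le_inf hkS Subgroup.le_normalizer) m hm
      (hmU.le.trans hkS)
    apply Phi_congr hna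
    refine climb _ ((S : Subgroup G) ⊓ Subgroup.normalizer (U : Set G)) inf_le_left
      (hadm_norm U hkS hUbot) rfl U (le_inf hkS Subgroup.le_normalizer) le_rfl n hn ?_
    rw [← rj_congr hna, hmU]
    exact hkS

end Cfsg.Agent.Lib.Helper14Control
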