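import Cfsg.Agent.Lib.Helper14Control
import Cfsg.Agent.Lib.Helper14WBasic
import Cfsg.Agent.Lib.Helper31PGroup
import Cfsg.Prelude.Def_EvenType
import Cfsg.Prelude.Def_TwoFusion

set_option autoImplicit false
open Cfsg

namespace Cfsg.Agent.Lib.Helper14Control2

open Subgroup Cfsg.Agent.Lib.Helper40Sylow Cfsg.Agent.Lib.Helper40Alperin
  Cfsg.Agent.Lib.Helper40Fusion Cfsg.Agent.Lib.Helper14Control Cfsg.Agent.Lib.Helper14WBasic
  Cfsg.Agent.Lib.Helper14Family Cfsg.Agent.Lib.Helper14FamProps Cfsg.Agent.Lib.Helper14Transport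

variable {G : Type*} [Group G]

/-- control of strong fusion in a group `H = X N₂` with `X` a normal `p'`-subgroup -/
theorem control_of_factor [Finite G] {p : ℕ} [Fact p.Prime] {H R X N₂ : Subgroup G}
    (hR : IsSylowIn p R H) (hXH : X ≤ H) (hHX : H ≤ Subgroup.normalizer (X : Set G))
    (hXp : (Nat.card X).Coprime p) (hRN : R ≤ N₂)
    (hfac : ∀ h ∈ H, ∃ x ∈ X, ∃ n ∈ H, n ∈ N₂ ∧ h = x * n)
    (E : Subgroup G) (hE : E ≤ R) (h : G) (hh : h ∈ H) (hhE : rj h E ≤ R) :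
    ∃ n ∈ N₂, ∀ a ∈ E, h⁻¹ * a * h = n⁻¹ * a * n := by
  obtain ⟨x, hx, n, hnH, hnN, rfl⟩ := hfac h hh
  have hRX : R ⊓ X = ⊥ := by
    rw [← disjoint_iff]
    apply Subgroup.disjoint_of_coprime_natCard
    obtain ⟨k, hk⟩ := hR.2.1.exists_card_eq
    rw [hk]
    exact Nat.Coprime.pow_left k hXp.symm
  have hconjX : ∀ e ∈ H, ∀ y ∈ X, e * y * e⁻¹ ∈ X := fun e he y hy =>
    (Subgroup.mem_normalizer_iff.mp (hHX he) y).mp hy
  have hF1 : rj x E ≤ X ⊔ R := by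
    intro y hy
    rw [mem_rj] at hy
    set e := x * y * x⁻¹ with he
    have h1 : y = (x⁻¹ * (e * x * e⁻¹)) * e := by rw [he]; group
    rw [h1]
    exact mul_mem ((le_sup_left : X ≤ X ⊔ R) (mul_mem (inv_mem hx) (hconjX e (hR.1 (hE hy)) x hx)))
      ((le_sup_right : R ≤ X ⊔ R) (hE hy))
  have hF2 : rj x E ≤ N₂ := by
    intro y hy
    have h1 : n⁻¹ * y * n ∈ rj n (rj x E) := conj_mem_rj hy
    rw [← rj_mul] at h1
    have h2 := mul_mem (mul_mem hnN (hRN (hhE h1))) (inv_mem hnN)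
    have e : n * (n⁻¹ * y * n) * n⁻¹ = y := by group
    rwa [e] at h2
  have hM₂H : N₂ ⊓ (X ⊔ R) ≤ H := inf_le_right.trans (sup_le hXH hR.1)
  have hS₂ : IsSylowIn p R (N₂ ⊓ (X ⊔ R)) := hR.of_le (le_inf hRN le_sup_right) hM₂H
  obtain ⟨y, hy, hyF⟩ := hS₂.exists_conj_le (isPGroup_cj (hR.2.1.to_le hE) x⁻¹) (le_inf hF2 hF1)
  have hz : x * y⁻¹ ∈ R ⊔ X := by
    rw [sup_comm]
    exact mul_mem ((le_sup_left : X ≤ X ⊔ R) hx) (inv_mem hy.2)
  have hzE : rj (x * y⁻¹) E ≤ R := by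
    rw [rj_mul]
    have : rj y⁻¹ (rj x E) = cj y (rj x E) := by rw [rj, inv_inv]
    rw [this]
    exact hyF
  have hz' : x * y⁻¹ ∈ ((R ⊔ X : Subgroup G) : Set G) := hz
  rw [Subgroup.coe_mul_of_left_le_normalizer_right R X (hR.1.trans hHX)] at hz'
  obtain ⟨r, hr, x₂, hx₂, hrx⟩ := hz'
  have hr' : r ∈ R := hr
  have hx₂' : x₂ ∈ X := hx₂
  have hrx' : r * x₂ = x * y⁻¹ := hrx
  refine ⟨r * y * n, mul_mem (mul_mem (hRN hr') hy.1) hnN, ?_⟩
  intro a ha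
  set e₁ := r⁻¹ * a * r with he₁
  have he₁R : e₁ ∈ R := mul_mem (mul_mem (inv_mem hr') (hE ha)) hr'
  have h1 : x₂⁻¹ * e₁ * x₂ ∈ R := by
    have h2 : (x * y⁻¹)⁻¹ * a * (x * y⁻¹) ∈ rj (x * y⁻¹) E := conj_mem_rj ha
    rw [← hrx'] at h2
    have e : (r * x₂)⁻¹ * a * (r * x₂) = x₂⁻¹ * e₁ * x₂ := by rw [he₁]; group
    rw [e, hrx'] at h2
    exact hzE h2
  have h3 : e₁⁻¹ * (x₂⁻¹ * e₁ * x₂) ∈ R ⊓ X := by
    refine Subgroup.mem_inf.mpr ⟨mul_mem (inv_mem he₁R) h1, ?_⟩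
    have e : e₁⁻¹ * (x₂⁻¹ * e₁ * x₂) = (e₁⁻¹ * x₂⁻¹ * e₁⁻¹⁻¹) * x₂ := by group
    rw [e]
    exact mul_mem (hconjX e₁⁻¹ (inv_mem (hR.1 he₁R)) _ (inv_mem hx₂')) hx₂'
  rw [hRX, Subgroup.mem_bot] at h3
  have h4 : x₂⁻¹ * e₁ * x₂ = e₁ := by
    have := congrArg (fun t => e₁ * t) h3
    simpa [mul_assoc] using this
  have hx_eq : x = r * x₂ * y := by rw [hrx']; group
  calc (x * n)⁻¹ * a * (x * n) = (y * n)⁻¹ * (x₂⁻¹ * e₁ * x₂) * (y * n) := by
        rw [hx_eq, he₁]; group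
    _ = (y * n)⁻¹ * e₁ * (y * n) := by rw [h4]
    _ = (r * y * n)⁻¹ * a * (r * y * n) := by rw [he₁]; group

theorem normalizer_le_of_equivariant (W : Subgroup G → Subgroup G)
    (hWcj : ∀ (T : Subgroup G) (g : G), W (rj g T) = rj g (W T)) (T : Subgroup G) :
    Subgroup.normalizer (T : Set G) ≤ Subgroup.normalizer ((W T : Subgroup G) : Set G) := by
  intro g hg
  have h1 : rj g T = T := mem_normalizer_iff_rj.mp hg
  have h2 := hWcj T g
  rw [h1] at h2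
  exact mem_normalizer_iff_rj.mpr h2.symm

theorem rj_inf_stronglyClosed {D P R : Subgroup G} (hD : IsStronglyClosed D P) (hR : R ≤ P) (g : G)
    (hg : rj g R ≤ P) : rj g R ⊓ D = rj g (R ⊓ D) := by
  rw [rj_inf]
  apply le_antisymm
  · intro y hy
    obtain ⟨hy1, hy2⟩ := Subgroup.mem_inf.mp hy
    refine Subgroup.mem_inf.mpr ⟨hy1, ?_⟩
    rw [mem_rj] at hy1 ⊢
    exact hD.2 y hy2 g (hR hy1)
  · intro y hy
    obtain ⟨hy1, hy2⟩ := Subgroup.mem_inf.mp hy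
    refine Subgroup.mem_inf.mpr ⟨hy1, ?_⟩
    rw [mem_rj] at hy2
    have h1 := hD.2 _ hy2 g⁻¹
    have e : g⁻¹ * (g * y * g⁻¹) * g⁻¹⁻¹ = y := by group
    rw [e] at h1
    exact h1 (hg hy1)

theorem normalizer_inf_ne_bot [Finite G] {p : ℕ} [Fact p.Prime] (P : Sylow p G) {D : Subgroup G}
    (hD : IsStronglyClosed D (P : Subgroup G)) (hDne : D ≠ ⊥) (U : Subgroup G)
    (hU : U ≤ P) : (P : Subgroup G) ⊓ Subgroup.normalizer (U : Set G) ⊓ D ≠ ⊥ := by
  have hn : (D.subgroupOf (P : Subgroup G)).Normal := by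
    rw [Subgroup.normal_subgroupOf_iff_le_normalizer hD.1, Subgroup.le_normalizer_iff]
    intro g hg d hd
    exact hD.2 d hd g (mul_mem (mul_mem hg (hD.1 hd)) (inv_mem hg))
  have hne : D.subgroupOf (P : Subgroup G) ≠ ⊥ := by
    intro h
    apply hDne
    rw [← map_subgroupOf hD.1, h, Subgroup.map_bot]
  obtain ⟨z, hzD, hzc, hz1⟩ :=
    Cfsg.Agent.Lib.Helper31PGroup.exists_center_mem_of_normal P.2 (D.subgroupOf (P : Subgroup G)) hne
  intro hbot
  apply hz1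
  have h1 : (z : G) ∈ (P : Subgroup G) ⊓ Subgroup.normalizer (U : Set G) ⊓ D := by
    refine Subgroup.mem_inf.mpr ⟨Subgroup.mem_inf.mpr ⟨z.2, ?_⟩, hzD⟩
    apply Subgroup.centralizer_le_normalizer
    intro u hu
    have := (Subgroup.mem_center_iff.mp hzc) ⟨u, hU hu⟩
    exact congrArg Subtype.val this
  rw [hbot, Subgroup.mem_bot] at h1
  exact Subtype.ext h1

/-- Control of strong fusion by `N_G(W(D))` from local control, `D` strongly closed. -/
theorem control_stronglyClosed [Finite G] {p : ℕ} [Fact p.Prime] (P : Sylow p G) (D : Subgroup G)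
    (hD : IsStronglyClosed D (P : Subgroup G)) (W : Subgroup G → Subgroup G)
    (hWle : ∀ T : Subgroup G, W T ≤ T)
    (hWne : ∀ T : Subgroup G, IsPGroup p T → T ≠ ⊥ → W T ≠ ⊥)
    (hWcj : ∀ (T : Subgroup G) (g : G), W (rj g T) = rj g (W T))
    (LC : ∀ Y : Subgroup G, Y ≤ P → Y ≠ ⊥ → FullyNorm p (P : Subgroup G) Y →
      ∀ E : Subgroup G, E ≤ (P : Subgroup G) ⊓ Subgroup.normalizer (Y : Set G) →
      ∀ h ∈ Subgroup.normalizer (Y : Set G), rj h E ≤ P →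
      ∃ n ∈ Subgroup.normalizer
          ((W ((P : Subgroup G) ⊓ Subgroup.normalizer (Y : Set G) ⊓ D) : Subgroup G) : Set G),
        ∀ a ∈ E, h⁻¹ * a * h = n⁻¹ * a * n) :
    ∀ A : Set G, A ⊆ (P : Subgroup G) →
      ControlsStrongFusionOf (Subgroup.normalizer ((W D : Subgroup G) : Set G)) (P : Subgroup G) A := by
  intro A hA
  refine ⟨hA, ?_⟩
  intro g hg
  by_cases hDne : D = ⊥
  · refine ⟨g, ?_, fun _ _ => rfl⟩
    have h1 : W D = ⊥ := by rw [eq_bot_iff, ← hDne]; exact hWle D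
    rw [h1]
    have : (⊥ : Subgroup G).Normal := inferInstance
    rw [Subgroup.normalizer_eq_top]
    trivial
  · have key := control_of_local P (fun R => W (R ⊓ D)) (fun R => R ⊓ D ≠ ⊥)
      (fun R _ => (hWle _).trans inf_le_left)
      (fun R hR hadm => hWne _ (P.2.to_le (inf_le_left.trans hR)) hadm)
      (fun R hR g hg => by
        rw [rj_inf_stronglyClosed hD hR g hg, hWcj])
      (fun R hR hadm g R' hgR' hR' => by
        intro hbot
        apply hadm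
        have h1 : rj g (R ⊓ D) ≤ R' ⊓ D := by
          rw [← rj_inf_stronglyClosed hD hR g (hgR'.trans hR')]
          exact inf_le_inf_right D hgR'
        rw [hbot, le_bot_iff] at h1
        have h2 : Nat.card (R ⊓ D : Subgroup G) = 1 := by
          rw [← card_rj g, h1]; exact Subgroup.card_bot
        exact Subgroup.card_eq_one.mp h2)
      (fun U hU _ => normalizer_inf_ne_bot P hD hDne U hU)
      LC
    have hE : Subgroup.closure A ≤ (P : Subgroup G) := (Subgroup.closure_le _).mpr hA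
    have hgE : rj g⁻¹ (Subgroup.closure A) ≤ (P : Subgroup G) := by
      rw [rj, inv_inv, cj, MonoidHom.map_closure, Subgroup.closure_le]
      rintro _ ⟨a, ha, rfl⟩
      exact hg ⟨a, ha, rfl⟩
    obtain ⟨x, hx, hxa⟩ := key _ hE g⁻¹ hgE
    have hPD : (P : Subgroup G) ⊓ D = D := inf_eq_right.mpr hD.1
    simp only [hPD] at hx
    refine ⟨x⁻¹, inv_mem hx, ?_⟩
    intro a ha
    have := hxa a (Subgroup.subset_closure ha)
    rw [inv_inv] at this
    rw [this, inv_inv]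

end Cfsg.Agent.Lib.Helper14Control2
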