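import Cfsg.Prelude.Def_PLocal
import Mathlib.GroupTheory.IndexNormal

set_option autoImplicit false
open Cfsg

namespace Cfsg.Agent.Lib.Helper14PGroup

theorem exists_normal_index_p {D : Type*} [Group D] [Finite D] {p : ℕ} [hp : Fact p.Prime]
    (hD : IsPGroup p D) [Nontrivial D] : ∃ M : Subgroup D, M.Normal ∧ M.index = p := by
  obtain ⟨n, hn⟩ := IsPGroup.iff_card.mp hD
  have hn0 : n ≠ 0 := by
    rintro rfl
    rw [pow_zero] at hn
    have := Finite.one_lt_card (α := D)
    omega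
  obtain ⟨m, rfl⟩ := Nat.exists_eq_succ_of_ne_zero hn0
  obtain ⟨K, hK⟩ := Sylow.exists_subgroup_card_pow_prime (G := D) p (n := m)
    (by rw [hn]; exact pow_dvd_pow p (Nat.le_succ m))
  have hidx : K.index = p := by
    have h1 := K.card_mul_index
    rw [hK, hn, pow_succ] at h1
    exact Nat.eq_of_mul_eq_mul_left (pow_pos hp.out.pos m) h1
  refine ⟨K, ?_, hidx⟩
  apply Subgroup.normal_of_index_eq_minFac_card
  rw [hidx, hn, Nat.Prime.pow_minFac hp.out (Nat.succ_ne_zero m)]

theorem eq_bot_of_le_powerClosure {G : Type*} [Group G] [Finite G] {p : ℕ} [hp : Fact p.Prime]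
    (D : Subgroup G) (hD : IsPGroup p D) (h : D ≤ Cfsg.powerClosure p 1 D) : D = ⊥ := by
  by_contra hne
  have : Nontrivial D := (Subgroup.nontrivial_iff_ne_bot D).mpr hne
  obtain ⟨M, hMn, hMi⟩ := exists_normal_index_p hD
  have h1 : Cfsg.powerClosure p 1 D ≤ M.map D.subtype := by
    unfold Cfsg.powerClosure
    rw [Subgroup.closure_le]
    rintro y ⟨x, hx, rfl⟩
    refine ⟨⟨x, hx⟩ ^ p, ?_, by simp⟩
    rw [← hMi]
    exact Subgroup.pow_index_mem M _
  have h2 : D ≤ M.map D.subtype := h.trans h1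
  have h3 : M = ⊤ := by
    rw [eq_top_iff]
    intro x _
    obtain ⟨y, hy, hyx⟩ := h2 x.2
    have : y = x := Subtype.ext hyx
    rwa [← this]
  rw [h3, Subgroup.index_top] at hMi
  exact hp.out.one_lt.ne hMi

end Cfsg.Agent.Lib.Helper14PGroup
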