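import Cfsg.Agent.Lib.Helper43BPDefs

set_option autoImplicit false
set_option linter.unusedSectionVars false

/-! PROJECT 43, piece `c3`: elementary facts on the 3-cycles `c3 a b i`. -/

namespace Cfsg.Agent.Lib.Helper17BPC3

open Cfsg.Agent.Lib.Helper43BP

variable {Ω : Type*} [Fintype Ω] [DecidableEq Ω]

theorem c3_self (a b : Ω) : c3 a b a = 1 := by
  unfold c3
  rw [Equiv.swap_comm b a, Equiv.swap_mul_self]

theorem c3_conj (σ : Equiv.Perm Ω) (a b i : Ω) : σ * c3 a b i * σ⁻¹ = c3 (σ a) (σ b) (σ i) := by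
  unfold c3
  rw [Equiv.swap_apply_apply, Equiv.swap_apply_apply]
  group

theorem c3_apply_a (a b i : Ω) (hab : a ≠ b) (hia : i ≠ a) : c3 a b i a = b := by
  unfold c3
  rw [Equiv.Perm.mul_apply, Equiv.swap_apply_of_ne_of_ne hab hia.symm, Equiv.swap_apply_left]

theorem c3_apply_b (a b i : Ω) (hia : i ≠ a) (hib : i ≠ b) : c3 a b i b = i := by
  unfold c3
  rw [Equiv.Perm.mul_apply, Equiv.swap_apply_left, Equiv.swap_apply_of_ne_of_ne hia hib]

theorem c3_apply_i (a b i : Ω) : c3 a b i i = a := by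
  unfold c3
  rw [Equiv.Perm.mul_apply, Equiv.swap_apply_right, Equiv.swap_apply_right]

theorem c3_apply_of_ne (a b i x : Ω) (hxa : x ≠ a) (hxb : x ≠ b) (hxi : x ≠ i) :
    c3 a b i x = x := by
  unfold c3
  rw [Equiv.Perm.mul_apply, Equiv.swap_apply_of_ne_of_ne hxb hxi,
    Equiv.swap_apply_of_ne_of_ne hxa hxb]

theorem c3_swap (a b i : Ω) (hab : a ≠ b) (hia : i ≠ a) (hib : i ≠ b) :
    c3 b a i = (c3 a b i)⁻¹ := by
  rw [eq_inv_iff_mul_eq_one]
  apply Equiv.ext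
  intro x
  rw [Equiv.Perm.mul_apply, Equiv.Perm.one_apply]
  by_cases hxa : x = a
  · subst hxa
    rw [c3_apply_a _ _ _ hab hia, c3_apply_a _ _ _ hab.symm hib]
  by_cases hxb : x = b
  · subst hxb
    rw [c3_apply_b _ _ _ hia hib, c3_apply_i]
  by_cases hxi : x = i
  · subst hxi
    rw [c3_apply_i, c3_apply_b _ _ _ hib hia]
  · rw [c3_apply_of_ne _ _ _ _ hxa hxb hxi, c3_apply_of_ne _ _ _ _ hxb hxa hxi]

theorem c3_pow3 (a b i : Ω) (hab : a ≠ b) (hia : i ≠ a) (hib : i ≠ b) : c3 a b i ^ 3 = 1 := by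
  apply Equiv.ext
  intro x
  rw [pow_succ, pow_succ, pow_one, Equiv.Perm.mul_apply, Equiv.Perm.mul_apply,
    Equiv.Perm.one_apply]
  by_cases hxa : x = a
  · subst hxa
    rw [c3_apply_a _ _ _ hab hia, c3_apply_b _ _ _ hia hib, c3_apply_i]
  by_cases hxb : x = b
  · subst hxb
    rw [c3_apply_b _ _ _ hia hib, c3_apply_i, c3_apply_a _ _ _ hab hia]
  by_cases hxi : x = i
  · subst hxi
    rw [c3_apply_i, c3_apply_a _ _ _ hab hia, c3_apply_b _ _ _ hia hib]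
  · rw [c3_apply_of_ne _ _ _ _ hxa hxb hxi, c3_apply_of_ne _ _ _ _ hxa hxb hxi,
      c3_apply_of_ne _ _ _ _ hxa hxb hxi]

theorem c3_mul_sq (a b i j : Ω) (hab : a ≠ b) (hia : i ≠ a) (hib : i ≠ b) (hja : j ≠ a)
    (hjb : j ≠ b) (hij : i ≠ j) : (c3 a b i * c3 a b j) ^ 2 = 1 := by
  apply Equiv.ext
  intro x
  rw [sq, Equiv.Perm.mul_apply, Equiv.Perm.mul_apply, Equiv.Perm.mul_apply,
    Equiv.Perm.one_apply]
  by_cases hxa : x = a
  · subst hxa
    rw [c3_apply_a _ _ _ hab hja, c3_apply_b _ _ _ hia hib,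
      c3_apply_of_ne _ _ _ _ hia hib hij, c3_apply_i]
  by_cases hxb : x = b
  · subst hxb
    rw [c3_apply_b _ _ _ hja hjb, c3_apply_of_ne _ _ _ _ hja hjb hij.symm, c3_apply_i,
      c3_apply_a _ _ _ hab hia]
  by_cases hxi : x = i
  · subst hxi
    rw [c3_apply_of_ne _ _ _ _ hia hib hij, c3_apply_i, c3_apply_a _ _ _ hab hja,
      c3_apply_b _ _ _ hia hib]
  by_cases hxj : x = j
  · subst hxj
    rw [c3_apply_i, c3_apply_a _ _ _ hab hia, c3_apply_b _ _ _ hja hjb,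
      c3_apply_of_ne _ _ _ _ hja hjb hij.symm]
  · rw [c3_apply_of_ne _ _ _ _ hxa hxb hxj, c3_apply_of_ne _ _ _ _ hxa hxb hxi,
      c3_apply_of_ne _ _ _ _ hxa hxb hxj, c3_apply_of_ne _ _ _ _ hxa hxb hxi]

theorem c3_sign (a b i : Ω) (hab : a ≠ b) (hib : i ≠ b) : Equiv.Perm.sign (c3 a b i) = 1 := by
  unfold c3
  rw [map_mul, Equiv.Perm.sign_swap hab, Equiv.Perm.sign_swap hib.symm]
  rfl

theorem c3_mem (A : Set Ω) (a b i : Ω) (ha : a ∈ A) (hb : b ∈ A) (hi : i ∈ A) (hab : a ≠ b)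
    (hib : i ≠ b) : c3 a b i ∈ altOn A := by
  refine ⟨c3_sign a b i hab hib, fun x hx => ?_⟩
  apply c3_apply_of_ne
  · rintro rfl; exact hx ha
  · rintro rfl; exact hx hb
  · rintro rfl; exact hx hi

theorem c3_mem_alt (a b i : Ω) (hab : a ≠ b) (hib : i ≠ b) : c3 a b i ∈ alternatingGroup Ω :=
  c3_sign a b i hab hib

end Cfsg.Agent.Lib.Helper17BPC3
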