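import Cfsg.Agent.Lib.Helper43BPDefs

set_option autoImplicit false

/-! Project 43, piece `gen`: the 3-cycles `c3 a b i` (`i ∈ A`) generate `altOn A`. -/

namespace Cfsg.Agent.Lib.Helper36BPGen

open Cfsg.Agent.Lib.Helper43BP

variable {Ω : Type*} [Fintype Ω] [DecidableEq Ω]

theorem c3_eq (a b i : Ω) (hab : a ≠ b) (hia : i ≠ a) (hib : i ≠ b) :
    c3 a b i = Equiv.swap a i * Equiv.swap a b := by
  unfold c3
  have h := Equiv.swap_mul_swap_mul_swap (x := i) (y := a) (z := b) hia hib
  -- swap a b * swap i a * swap a b = swap b i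
  rw [← h, Equiv.swap_comm i a]
  simp [mul_assoc]

theorem c3_inv_eq (a b i : Ω) (hab : a ≠ b) (hia : i ≠ a) (hib : i ≠ b) :
    (c3 a b i)⁻¹ = Equiv.swap a b * Equiv.swap a i := by
  rw [c3_eq a b i hab hia hib]
  simp

theorem c3_mem_altOn (A : Set Ω) (a b i : Ω) (hab : a ≠ b) (ha : a ∈ A) (hb : b ∈ A)
    (hi : i ∈ A) (hib : i ≠ b) : c3 a b i ∈ altOn A := by
  refine ⟨?_, fun x hx => ?_⟩
  · unfold c3
    rw [map_mul, Equiv.Perm.sign_swap hab, Equiv.Perm.sign_swap hib.symm]
    simp
  · unfold c3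
    have h1 : x ≠ a := fun h => hx (h ▸ ha)
    have h2 : x ≠ b := fun h => hx (h ▸ hb)
    have h3 : x ≠ i := fun h => hx (h ▸ hi)
    rw [Equiv.Perm.mul_apply, Equiv.swap_apply_of_ne_of_ne h2 h3,
      Equiv.swap_apply_of_ne_of_ne h1 h2]

theorem closure_c3 (A : Set Ω) (a b : Ω) (hab : a ≠ b) (ha : a ∈ A) (hb : b ∈ A) :
    Subgroup.closure {g : Equiv.Perm Ω | ∃ i ∈ A, i ≠ a ∧ i ≠ b ∧ g = c3 a b i} = altOn A := by
  set K := Subgroup.closure {g : Equiv.Perm Ω | ∃ i ∈ A, i ≠ a ∧ i ≠ b ∧ g = c3 a b i} with hK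
  have hle : K ≤ altOn A := by
    rw [hK, Subgroup.closure_le]
    rintro g ⟨i, hi, -, hib, rfl⟩
    exact c3_mem_altOn A a b i hab ha hb hi hib
  refine le_antisymm hle ?_
  have hc : ∀ i ∈ A, i ≠ a → i ≠ b → c3 a b i ∈ K := fun i hi h1 h2 =>
    Subgroup.subset_closure ⟨i, hi, h1, h2, rfl⟩
  -- the predicate
  let P : Equiv.Perm Ω → Prop := fun σ => σ ∈ K ∨ Equiv.swap a b * σ ∈ K
  have hP1 : ∀ i ∈ A, ∀ σ, P σ → P (Equiv.swap a i * σ) := by
    intro i hi σ hσ
    by_cases hia : i = a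
    · subst hia
      rw [Equiv.swap_self]
      exact hσ
    by_cases hib : i = b
    · subst hib
      rcases hσ with h | h
      · right
        simpa [← mul_assoc] using h
      · left
        exact h
    rcases hσ with h | h
    · right
      rw [← mul_assoc, ← c3_inv_eq a b i hab hia hib]
      exact K.mul_mem (K.inv_mem (hc i hi hia hib)) h
    · left
      have : Equiv.swap a i * σ = c3 a b i * (Equiv.swap a b * σ) := by
        rw [c3_eq a b i hab hia hib]
        simp [mul_assoc]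
      rw [this]
      exact K.mul_mem (hc i hi hia hib) h
  have hP2 : ∀ x ∈ A, ∀ y ∈ A, ∀ σ, P σ → P (Equiv.swap x y * σ) := by
    intro x hx y hy σ hσ
    by_cases hxy : x = y
    · subst hxy
      rw [Equiv.swap_self]
      exact hσ
    by_cases hxa : x = a
    · subst hxa
      exact hP1 y hy σ hσ
    by_cases hya : y = a
    · subst hya
      rw [Equiv.swap_comm]
      exact hP1 x hx σ hσ
    have h := Equiv.swap_mul_swap_mul_swap (x := y) (y := a) (z := x) hya (Ne.symm hxy)
    -- swap a x * swap y a * swap a x = swap x y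
    rw [← h, Equiv.swap_comm y a, mul_assoc, mul_assoc]
    exact hP1 x hx _ (hP1 y hy _ (hP1 x hx _ hσ))
  have hP : ∀ n : ℕ, ∀ σ : Equiv.Perm Ω, σ.support.card = n → (∀ x, x ∉ A → σ x = x) → P σ := by
    intro n
    induction n using Nat.strong_induction_on with
    | _ n ih =>
      intro σ hn hσ
      by_cases h1 : σ = 1
      · left
        rw [h1]
        exact K.one_mem
      obtain ⟨x, hx⟩ : ∃ x, σ x ≠ x := by
        by_contra hcon
        exact h1 (Equiv.ext fun z => by
          by_contra hz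
          exact hcon ⟨z, hz⟩)
      have hxA : x ∈ A := by
        by_contra hcon
        exact hx (hσ x hcon)
      have hsxA : σ x ∈ A := by
        by_contra hcon
        exact hx (σ.injective (hσ _ hcon))
      have hlt := Equiv.Perm.card_support_swap_mul hx
      have hτ : ∀ z, z ∉ A → (Equiv.swap x (σ x) * σ) z = z := by
        intro z hz
        rw [Equiv.Perm.mul_apply, hσ z hz]
        exact Equiv.swap_apply_of_ne_of_ne (fun h => hz (h ▸ hxA)) (fun h => hz (h ▸ hsxA))
      have := hP2 x hxA (σ x) hsxA _ (ih _ (hn ▸ hlt) _ rfl hτ)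
      simpa [← mul_assoc] using this
  intro σ hσ
  rcases hP _ σ rfl hσ.2 with h | h
  · exact h
  · exfalso
    have h2 := (hle h).1
    rw [map_mul, Equiv.Perm.sign_swap hab, hσ.1] at h2
    revert h2
    decide

end Cfsg.Agent.Lib.Helper36BPGen
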