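import Cfsg.Agent.Lib.Helper43BPDefs

set_option autoImplicit false

/-! Project 43, piece `carmcard`: the order bound for Carmichael's presentation of the
alternating groups (coset enumeration). -/

namespace Cfsg.Agent.Lib.Helper84BPCarmcard

open Cfsg.Agent.Lib.Helper43BP
open scoped Pointwise

section ids

variable {G : Type*} [Group G]

theorem inv_of_pow3 {a : G} (h : a ^ 3 = 1) : a⁻¹ = a * a := by
  rw [pow_succ, pow_two] at h
  rw [inv_eq_iff_mul_eq_one, ← mul_assoc]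
  exact h

theorem inv_mul_inv_of_pow3 {a : G} (h : a ^ 3 = 1) : a⁻¹ * a⁻¹ = a := by
  rw [pow_succ, pow_two] at h
  rw [← mul_inv_rev, inv_eq_iff_mul_eq_one]
  exact h

theorem mul_of_sq {a b : G} (h : (a * b) ^ 2 = 1) : a * b = b⁻¹ * a⁻¹ := by
  rw [← mul_inv_rev, eq_inv_iff_mul_eq_one, ← pow_two]
  exact h

theorem id3 {x z : G} (hx : x ^ 3 = 1) (hz : z ^ 3 = 1) (hxz : (x * z) ^ 2 = 1)
    (hzx : (z * x) ^ 2 = 1) : z⁻¹ * x * z = x⁻¹ * (z⁻¹ * x) := by
  calc z⁻¹ * x * z = z⁻¹ * (x * z) := by group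
    _ = z⁻¹ * (z⁻¹ * x⁻¹) := by rw [mul_of_sq hxz]
    _ = (z⁻¹ * z⁻¹) * x⁻¹ := by group
    _ = z * (x * x) := by rw [inv_mul_inv_of_pow3 hz, inv_of_pow3 hx]
    _ = (z * x) * x := by group
    _ = (x⁻¹ * z⁻¹) * x := by rw [mul_of_sq hzx]
    _ = x⁻¹ * (z⁻¹ * x) := by group

theorem id2 {x z : G} (hx : x ^ 3 = 1) (hxz : (x * z) ^ 2 = 1) :
    z⁻¹ * x * x = x * z := by
  calc z⁻¹ * x * x = z⁻¹ * (x * x) := by group
    _ = z⁻¹ * x⁻¹ := by rw [inv_of_pow3 hx]
    _ = x * z := (mul_of_sq hxz).symm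

theorem id4 {x y z : G} (hx : x ^ 3 = 1) (hzx : (z * x) ^ 2 = 1)
    (hyz : (y * z) ^ 2 = 1) (hxy : (x * y) ^ 2 = 1) :
    z⁻¹ * x * y = (y * x⁻¹) * (z⁻¹ * x) := by
  symm
  calc (y * x⁻¹) * (z⁻¹ * x) = y * (x⁻¹ * z⁻¹) * x := by group
    _ = y * (z * x) * x := by rw [mul_of_sq hzx]
    _ = (y * z) * (x * x) := by group
    _ = (z⁻¹ * y⁻¹) * x⁻¹ := by rw [mul_of_sq hyz, inv_of_pow3 hx]
    _ = z⁻¹ * (y⁻¹ * x⁻¹) := by group
    _ = z⁻¹ * (x * y) := by rw [mul_of_sq hxy]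
    _ = z⁻¹ * x * y := by group

end ids

theorem step {ι : Type*} {G : Type*} [Group G] (x : ι → G)
    (h3 : ∀ i, x i ^ 3 = 1) (h2 : ∀ i j, i ≠ j → (x i * x j) ^ 2 = 1)
    (S : Set ι) (m : ι) (hm : m ∉ S) (r : G)
    (hr : r = 1 ∨ r = x m ∨ r = (x m)⁻¹ ∨ ∃ j ∈ S, r = (x m)⁻¹ * x j)
    (i : ι) (hi : i = m ∨ i ∈ S) :
    ∃ k ∈ Subgroup.closure (x '' S), ∃ r' : G,
      (r' = 1 ∨ r' = x m ∨ r' = (x m)⁻¹ ∨ ∃ j ∈ S, r' = (x m)⁻¹ * x j) ∧ r * x i = k * r' := by
  have hK : ∀ j ∈ S, x j ∈ Subgroup.closure (x '' S) := fun j hj =>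
    Subgroup.subset_closure ⟨j, hj, rfl⟩
  have hne : ∀ j ∈ S, j ≠ m := fun j hj h => hm (h ▸ hj)
  rcases hr with rfl | rfl | rfl | ⟨j, hj, rfl⟩
  · rcases hi with rfl | hi
    · exact ⟨1, one_mem _, x i, Or.inr (Or.inl rfl), rfl⟩
    · exact ⟨x i, hK i hi, 1, Or.inl rfl, by simp⟩
  · rcases hi with rfl | hi
    · exact ⟨1, one_mem _, (x i)⁻¹, Or.inr (Or.inr (Or.inl rfl)), by
        rw [inv_of_pow3 (h3 i), one_mul]⟩
    · exact ⟨(x i)⁻¹, inv_mem (hK i hi), (x m)⁻¹, Or.inr (Or.inr (Or.inl rfl)),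
        mul_of_sq (h2 m i (hne i hi).symm)⟩
  · rcases hi with rfl | hi
    · exact ⟨1, one_mem _, 1, Or.inl rfl, by simp⟩
    · exact ⟨1, one_mem _, (x m)⁻¹ * x i, Or.inr (Or.inr (Or.inr ⟨i, hi, rfl⟩)), by simp⟩
  · rcases hi with rfl | hi
    · exact ⟨(x j)⁻¹, inv_mem (hK j hj), (x i)⁻¹ * x j, Or.inr (Or.inr (Or.inr ⟨j, hj, rfl⟩)),
        id3 (h3 j) (h3 i) (h2 j i (hne j hj)) (h2 i j (hne j hj).symm)⟩
    · by_cases hij : i = j
      · subst hij
        exact ⟨x i, hK i hi, x m, Or.inr (Or.inl rfl), id2 (h3 i) (h2 i m (hne i hi))⟩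
      · exact ⟨x i * (x j)⁻¹, mul_mem (hK i hi) (inv_mem (hK j hj)), (x m)⁻¹ * x j,
          Or.inr (Or.inr (Or.inr ⟨j, hj, rfl⟩)),
          id4 (h3 j) (h2 m j (hne j hj).symm) (h2 i m (hne i hi)) (h2 j i (Ne.symm hij))⟩

theorem card_closure {ι : Type*} {G : Type*} [Group G] (x : ι → G)
    (h3 : ∀ i, x i ^ 3 = 1) (h2 : ∀ i j, i ≠ j → (x i * x j) ^ 2 = 1) (S : Finset ι) :
    Finite ↥(Subgroup.closure (x '' (S : Set ι))) ∧
      2 * Nat.card ↥(Subgroup.closure (x '' (S : Set ι))) ≤ (S.card + 2).factorial := by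
  classical
  induction S using Finset.induction_on with
  | empty =>
    simp only [Finset.coe_empty, Set.image_empty, Subgroup.closure_empty, Finset.card_empty]
    refine ⟨inferInstance, ?_⟩
    simp [Nat.factorial]
  | insert m S hm ih =>
    obtain ⟨hfin, hcard⟩ := ih
    have hm' : m ∉ (S : Set ι) := by simpa using hm
    set K := Subgroup.closure (x '' (S : Set ι)) with hKdef
    let R : Finset G := insert 1 (insert (x m) (insert (x m)⁻¹ (S.image fun j => (x m)⁻¹ * x j)))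
    have hR : ∀ r, r ∈ R ↔ (r = 1 ∨ r = x m ∨ r = (x m)⁻¹ ∨ ∃ j ∈ (S : Set ι), r = (x m)⁻¹ * x j) := by
      intro r
      simp only [R, Finset.mem_insert, Finset.mem_image, Finset.mem_coe]
      constructor
      · rintro (h | h | h | ⟨j, hj, h⟩)
        · exact Or.inl h
        · exact Or.inr (Or.inl h)
        · exact Or.inr (Or.inr (Or.inl h))
        · exact Or.inr (Or.inr (Or.inr ⟨j, hj, h.symm⟩))
      · rintro (h | h | h | ⟨j, hj, h⟩)
        · exact Or.inl h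
        · exact Or.inr (Or.inl h)
        · exact Or.inr (Or.inr (Or.inl h))
        · exact Or.inr (Or.inr (Or.inr ⟨j, hj, h.symm⟩))
    have hRcard : R.card ≤ S.card + 3 := by
      calc R.card ≤ (insert (x m) (insert (x m)⁻¹ (S.image fun j => (x m)⁻¹ * x j))).card + 1 :=
            Finset.card_insert_le _ _
        _ ≤ ((insert (x m)⁻¹ (S.image fun j => (x m)⁻¹ * x j)).card + 1) + 1 := by
            gcongr; exact Finset.card_insert_le _ _
        _ ≤ (((S.image fun j => (x m)⁻¹ * x j).card + 1) + 1) + 1 := by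
            gcongr; exact Finset.card_insert_le _ _
        _ ≤ ((S.card + 1) + 1) + 1 := by
            gcongr; exact Finset.card_image_le
        _ = S.card + 3 := by ring
    let T : Set G := (K : Set G) * (R : Set G)
    have hTfin : T.Finite := Set.Finite.mul (Set.toFinite _) (Finset.finite_toSet R)
    have hstab : ∀ t ∈ T, ∀ i, (i = m ∨ i ∈ (S : Set ι)) → t * x i ∈ T := by
      rintro t ⟨k, hk, r, hr, rfl⟩ i hi
      obtain ⟨k', hk', r', hr', he⟩ := step x h3 h2 (S : Set ι) m hm' r ((hR r).1 hr) i hi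
      refine ⟨k * k', mul_mem hk hk', r', (hR r').2 hr', ?_⟩
      simp only [mul_assoc]
      rw [he]
    have hsub : ((Subgroup.closure (x '' ((insert m S : Finset ι) : Set ι)) : Subgroup G) : Set G) ⊆ T := by
      intro g hg
      refine Subgroup.closure_induction_right (p := fun g _ => g ∈ T) ?_ ?_ ?_ hg
      · exact ⟨1, one_mem _, 1, (hR 1).2 (Or.inl rfl), by simp⟩
      · rintro t _ y ⟨i, hi, rfl⟩ ht
        refine hstab t ht i ?_
        simpa using hi
      · rintro t _ y ⟨i, hi, rfl⟩ ht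
        have hi' : i = m ∨ i ∈ (S : Set ι) := by simpa using hi
        rw [inv_of_pow3 (h3 i), ← mul_assoc]
        exact hstab _ (hstab t ht i hi') i hi'
    have hfin' : Finite ↥(Subgroup.closure (x '' ((insert m S : Finset ι) : Set ι))) :=
      (hTfin.subset hsub).to_subtype
    refine ⟨hfin', ?_⟩
    have h1 : Nat.card ↥(Subgroup.closure (x '' ((insert m S : Finset ι) : Set ι))) ≤ T.ncard := by
      exact Set.ncard_le_ncard hsub hTfin
    have h2' : T.ncard ≤ Nat.card K * R.card := by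
      have := Set.natCard_mul_le (s := (K : Set G)) (t := (R : Set G))
      have h5 : Nat.card ((R : Set G)) = R.card := by simp
      rw [h5] at this
      exact this
    rw [Finset.card_insert_of_notMem hm]
    calc 2 * Nat.card ↥(Subgroup.closure (x '' ((insert m S : Finset ι) : Set ι)))
        ≤ 2 * (Nat.card K * R.card) := by gcongr; exact h1.trans h2'
      _ = (2 * Nat.card K) * R.card := by ring
      _ ≤ (S.card + 2).factorial * (S.card + 3) := Nat.mul_le_mul hcard hRcard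
      _ = (S.card + 1 + 2).factorial := by
          rw [show S.card + 1 + 2 = (S.card + 2) + 1 by ring, Nat.factorial_succ (S.card + 2),
            mul_comm]

-- piece `carmcard`
theorem carm_card {ι : Type*} [Fintype ι] {G : Type*} [Group G] (x : ι → G)
    (h3 : ∀ i, x i ^ 3 = 1) (h2 : ∀ i j, i ≠ j → (x i * x j) ^ 2 = 1)
    (hgen : Subgroup.closure (Set.range x) = ⊤) :
    Finite G ∧ 2 * Nat.card G ≤ (Fintype.card ι + 2).factorial := by
  have h := card_closure x h3 h2 Finset.univ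
  rw [Finset.coe_univ, Set.image_univ, hgen] at h
  obtain ⟨hf, hc⟩ := h
  have e : (⊤ : Subgroup G) ≃ G := Subgroup.topEquiv.toEquiv
  refine ⟨Finite.of_equiv _ e, ?_⟩
  rw [← Nat.card_congr e]
  simpa using hc

end Cfsg.Agent.Lib.Helper84BPCarmcard
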