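import Cfsg.Agent.Lib.Helper43BPDefs
import Cfsg.Agent.Lib.Helper17BPC3
import Cfsg.Agent.Lib.Helper36BPGen
import Cfsg.Agent.Lib.Helper84BPCarmcard

set_option autoImplicit false
set_option linter.unusedSectionVars false

/-! PROJECT 43, pieces `carmhom`, `carmpres`: Carmichael's presentation of the alternating group.
The primed versions take the pieces `gen` (`closure_c3`) and `carmcard` (`carm_card`) as
hypotheses; the final versions import them. -/

namespace Cfsg.Agent.Lib.Helper17BPCarmhom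

open Cfsg.Agent.Lib.Helper43BP Cfsg.Agent.Lib.Helper17BPC3

universe u

variable {Ω : Type u} [Fintype Ω] [DecidableEq Ω]

/-- index type of Carmichael's generators -/
abbrev Idx (a b : Ω) : Type u := {i : Ω // i ≠ a ∧ i ≠ b}

/-- Carmichael's relators -/
noncomputable def carmRels (a b : Ω) : Finset (FreeGroup (Idx a b)) := by
  classical exact
  (Finset.univ.image fun i : Idx a b => FreeGroup.of i ^ 3) ∪
    (Finset.univ.image fun ij : Idx a b × Idx a b =>
      if ij.1 = ij.2 then 1 else (FreeGroup.of ij.1 * FreeGroup.of ij.2) ^ 2)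

theorem mem_carmRels {a b : Ω} {r : FreeGroup (Idx a b)} :
    r ∈ carmRels a b ↔ (∃ i : Idx a b, r = FreeGroup.of i ^ 3) ∨
      ∃ i j : Idx a b, r = if i = j then 1 else (FreeGroup.of i * FreeGroup.of j) ^ 2 := by
  classical
  unfold carmRels
  simp only [Finset.mem_union, Finset.mem_image, Finset.mem_univ, true_and, Prod.exists]
  constructor
  · rintro (⟨i, rfl⟩ | ⟨i, j, rfl⟩)
    · exact Or.inl ⟨i, rfl⟩
    · exact Or.inr ⟨i, j, rfl⟩
  · rintro (⟨i, rfl⟩ | ⟨i, j, rfl⟩)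
    · exact Or.inl ⟨i, rfl⟩
    · exact Or.inr ⟨i, j, rfl⟩

theorem card_Idx {a b : Ω} (hab : a ≠ b) : Fintype.card (Idx a b) + 2 = Fintype.card Ω := by
  classical
  have h1 : Fintype.card (Idx a b) = (Finset.univ.filter fun i : Ω => i ≠ a ∧ i ≠ b).card :=
    Fintype.card_subtype _
  have h2 : (Finset.univ.filter fun i : Ω => i ≠ a ∧ i ≠ b) = Finset.univ \ {a, b} := by
    ext x
    simp [not_or]
  rw [h1, h2, Finset.card_sdiff_of_subset (Finset.subset_univ _), Finset.card_pair hab,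
    Finset.card_univ]
  have : 2 ≤ Fintype.card Ω := by
    rw [← Finset.card_pair hab]
    exact Finset.card_le_univ _
  omega

theorem card_carmRels_le (a b : Ω) :
    (carmRels a b).card ≤ Fintype.card (Idx a b) + Fintype.card (Idx a b) * Fintype.card (Idx a b) := by
  classical
  unfold carmRels
  refine (Finset.card_union_le _ _).trans (Nat.add_le_add ?_ ?_)
  · exact Finset.card_image_le.trans (by rw [Finset.card_univ])
  · exact Finset.card_image_le.trans (by rw [Finset.card_univ, Fintype.card_prod])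

/-- homomorphisms out of Carmichael's group -/
theorem lift_rel {a b : Ω} {G : Type*} [Group G] (x : Idx a b → G) (h3 : ∀ i, x i ^ 3 = 1)
    (h2 : ∀ i j, i ≠ j → (x i * x j) ^ 2 = 1) :
    ∀ r ∈ (↑(carmRels a b) : Set (FreeGroup (Idx a b))), FreeGroup.lift x r = 1 := by
  intro r hr
  rcases mem_carmRels.1 (Finset.mem_coe.1 hr) with ⟨i, rfl⟩ | ⟨i, j, rfl⟩
  · rw [map_pow, FreeGroup.lift_apply_of, h3]
  · by_cases hij : i = j
    · rw [if_pos hij, map_one]
    · rw [if_neg hij, map_pow, map_mul, FreeGroup.lift_apply_of, FreeGroup.lift_apply_of, h2 i j hij]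

/-- the relations hold in Carmichael's group -/
theorem of_pow3 {a b : Ω} (i : Idx a b) :
    (PresentedGroup.of i : PresentedGroup (↑(carmRels a b) : Set (FreeGroup (Idx a b)))) ^ 3 = 1 := by
  have : FreeGroup.of i ^ 3 ∈ (↑(carmRels a b) : Set (FreeGroup (Idx a b))) :=
    Finset.mem_coe.2 (mem_carmRels.2 (Or.inl ⟨i, rfl⟩))
  exact PresentedGroup.one_of_mem this

theorem of_mul_sq {a b : Ω} (i j : Idx a b) (hij : i ≠ j) :
    ((PresentedGroup.of i : PresentedGroup (↑(carmRels a b) : Set (FreeGroup (Idx a b)))) *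
      PresentedGroup.of j) ^ 2 = 1 := by
  have : (FreeGroup.of i * FreeGroup.of j) ^ 2 ∈ (↑(carmRels a b) : Set (FreeGroup (Idx a b))) :=
    Finset.mem_coe.2 (mem_carmRels.2 (Or.inr ⟨i, j, by rw [if_neg hij]⟩))
  exact PresentedGroup.one_of_mem this

/-- Carmichael's theorem -/
theorem carm_iso (a b : Ω) (hab : a ≠ b)
    (closure_c3 : Subgroup.closure {g : Equiv.Perm Ω | ∃ i ∈ (Set.univ : Set Ω), i ≠ a ∧ i ≠ b ∧
      g = c3 a b i} = altOn Set.univ)
    (carm_card : Finite (PresentedGroup (↑(carmRels a b) : Set (FreeGroup (Idx a b)))) ∧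
      2 * Nat.card (PresentedGroup (↑(carmRels a b) : Set (FreeGroup (Idx a b))))
        ≤ (Fintype.card (Idx a b) + 2).factorial) :
    ∃ e : PresentedGroup (↑(carmRels a b) : Set (FreeGroup (Idx a b))) ≃* ↥(alternatingGroup Ω),
      ∀ i : Idx a b, ((e (PresentedGroup.of i) : ↥(alternatingGroup Ω)) : Equiv.Perm Ω)
        = c3 a b i.1 := by
  set y : Idx a b → ↥(alternatingGroup Ω) := fun i => ⟨c3 a b i.1, c3_mem_alt a b i.1 hab i.2.2⟩
    with hy
  have hrel := lift_rel y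
    (fun i => Subtype.ext (c3_pow3 a b i.1 hab i.2.1 i.2.2))
    (fun i j hij => Subtype.ext (c3_mul_sq a b i.1 j.1 hab i.2.1 i.2.2 j.2.1 j.2.2
      (fun h => hij (Subtype.ext h))))
  set π := PresentedGroup.toGroup hrel with hπ
  have hπof : ∀ i, π (PresentedGroup.of i) = y i := fun i => PresentedGroup.toGroup.of hrel
  have hsurj : Function.Surjective π := by
    rw [← MonoidHom.range_eq_top, eq_top_iff]
    intro g _
    have hg : (g : Equiv.Perm Ω) ∈ altOn (Set.univ : Set Ω) := ⟨g.2, fun x hx => absurd trivial hx⟩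
    rw [← closure_c3] at hg
    have key : ∀ σ : Equiv.Perm Ω, σ ∈ Subgroup.closure {g : Equiv.Perm Ω |
        ∃ i ∈ (Set.univ : Set Ω), i ≠ a ∧ i ≠ b ∧ g = c3 a b i} →
        ∃ h : σ ∈ alternatingGroup Ω, (⟨σ, h⟩ : ↥(alternatingGroup Ω)) ∈ π.range := by
      intro σ hσ
      induction hσ using Subgroup.closure_induction with
      | mem σ hσ =>
        obtain ⟨i, -, hia, hib, rfl⟩ := hσ
        exact ⟨c3_mem_alt a b i hab hib, ⟨PresentedGroup.of ⟨i, hia, hib⟩, hπof _⟩⟩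
      | one => exact ⟨Subgroup.one_mem _, π.range.one_mem⟩
      | mul σ τ _ _ h1 h2 =>
        obtain ⟨h1, h1'⟩ := h1
        obtain ⟨h2, h2'⟩ := h2
        exact ⟨Subgroup.mul_mem _ h1 h2, π.range.mul_mem h1' h2'⟩
      | inv σ _ h1 =>
        obtain ⟨h1, h1'⟩ := h1
        exact ⟨Subgroup.inv_mem _ h1, π.range.inv_mem h1'⟩
    obtain ⟨_, h⟩ := key g hg
    exact h
  obtain ⟨hfin, hcard⟩ := carm_card
  have hnt : Nontrivial Ω := ⟨a, b, hab⟩
  have hbij : Function.Bijective π := by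
    rw [Nat.bijective_iff_surjective_and_card]
    refine ⟨hsurj, le_antisymm ?_ (Nat.card_le_card_of_surjective π hsurj)⟩
    have h1 := two_mul_nat_card_alternatingGroup (α := Ω)
    rw [Nat.card_eq_fintype_card (α := Equiv.Perm Ω), Fintype.card_perm] at h1
    rw [card_Idx hab] at hcard
    omega
  refine ⟨MulEquiv.ofBijective π hbij, fun i => ?_⟩
  show ((π (PresentedGroup.of i) : ↥(alternatingGroup Ω)) : Equiv.Perm Ω) = _
  rw [hπof]

/-- piece `carmhom`, with hypotheses -/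
theorem carm_hom' (a b : Ω) (hab : a ≠ b) {G : Type*} [Group G] (x : Ω → G)
    (h3 : ∀ i, i ≠ a → i ≠ b → x i ^ 3 = 1)
    (h2 : ∀ i j, i ≠ a → i ≠ b → j ≠ a → j ≠ b → i ≠ j → (x i * x j) ^ 2 = 1)
    (closure_c3 : ∀ (A : Set Ω) (a b : Ω), a ≠ b → a ∈ A → b ∈ A →
      Subgroup.closure {g : Equiv.Perm Ω | ∃ i ∈ A, i ≠ a ∧ i ≠ b ∧ g = c3 a b i} = altOn A)
    (carm_card : ∀ {ι : Type u} [Fintype ι] {G : Type u} [Group G] (x : ι → G),
      (∀ i, x i ^ 3 = 1) → (∀ i j, i ≠ j → (x i * x j) ^ 2 = 1) →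
      Subgroup.closure (Set.range x) = ⊤ →
      Finite G ∧ 2 * Nat.card G ≤ (Fintype.card ι + 2).factorial) :
    ∃ φ : ↥(alternatingGroup Ω) →* G,
      ∀ i (h : c3 a b i ∈ alternatingGroup Ω), i ≠ a → i ≠ b → φ ⟨c3 a b i, h⟩ = x i := by
  obtain ⟨e, he⟩ := carm_iso a b hab (closure_c3 Set.univ a b hab trivial trivial)
    (carm_card _ of_pow3 of_mul_sq (PresentedGroup.closure_range_of _))
  have hrel := lift_rel (a := a) (b := b) (fun i => x i.1)
    (fun i => h3 i.1 i.2.1 i.2.2)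
    (fun i j hij => h2 i.1 j.1 i.2.1 i.2.2 j.2.1 j.2.2 (fun h => hij (Subtype.ext h)))
  refine ⟨(PresentedGroup.toGroup hrel).comp e.symm.toMonoidHom, ?_⟩
  intro i h hia hib
  have h1 : (⟨c3 a b i, h⟩ : ↥(alternatingGroup Ω)) = e (PresentedGroup.of ⟨i, hia, hib⟩) :=
    Subtype.ext (he ⟨i, hia, hib⟩).symm
  rw [h1]
  simp only [MonoidHom.comp_apply, MulEquiv.coe_toMonoidHom, MulEquiv.symm_apply_apply]
  exact PresentedGroup.toGroup.of hrel

/-- piece `carmpres`, with hypotheses -/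
theorem BP_alt_carm' (n : ℕ) (hn : 2 ≤ n)
    (closure_c3 : ∀ (A : Set (Fin n)) (a b : Fin n), a ≠ b → a ∈ A → b ∈ A →
      Subgroup.closure {g : Equiv.Perm (Fin n) | ∃ i ∈ A, i ≠ a ∧ i ≠ b ∧ g = c3 a b i} = altOn A)
    (carm_card : ∀ {ι : Type} [Fintype ι] {G : Type} [Group G] (x : ι → G),
      (∀ i, x i ^ 3 = 1) → (∀ i j, i ≠ j → (x i * x j) ^ 2 = 1) →
      Subgroup.closure (Set.range x) = ⊤ →
      Finite G ∧ 2 * Nat.card G ≤ (Fintype.card ι + 2).factorial) :
    BP ↥(alternatingGroup (Fin n)) (n * n) := by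
  set a : Fin n := ⟨0, by omega⟩ with ha
  set b : Fin n := ⟨1, by omega⟩ with hb
  have hab : a ≠ b := by
    intro h
    have := congrArg Fin.val h
    simp [ha, hb] at this
  obtain ⟨e, -⟩ := carm_iso a b hab (closure_c3 Set.univ a b hab trivial trivial)
    (carm_card _ of_pow3 of_mul_sq (PresentedGroup.closure_range_of _))
  refine ⟨Idx a b, carmRels a b, ?_, ⟨e⟩⟩
  have h1 := card_carmRels_le a b
  have h2 := card_Idx hab
  rw [Fintype.card_fin] at h2
  refine h1.trans ?_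
  generalize Fintype.card (Idx a b) = k at h2
  nlinarith

/-- piece `carmhom` -/
theorem carm_hom (a b : Ω) (hab : a ≠ b) {G : Type*} [Group G] (x : Ω → G)
    (h3 : ∀ i, i ≠ a → i ≠ b → x i ^ 3 = 1)
    (h2 : ∀ i j, i ≠ a → i ≠ b → j ≠ a → j ≠ b → i ≠ j → (x i * x j) ^ 2 = 1) :
    ∃ φ : ↥(alternatingGroup Ω) →* G,
      ∀ i (h : c3 a b i ∈ alternatingGroup Ω), i ≠ a → i ≠ b → φ ⟨c3 a b i, h⟩ = x i :=
  carm_hom' a b hab x h3 h2 Cfsg.Agent.Lib.Helper36BPGen.closure_c3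
    (fun x h3 h2 hg => Cfsg.Agent.Lib.Helper84BPCarmcard.carm_card x h3 h2 hg)

/-- piece `carmpres` -/
theorem BP_alt_carm (n : ℕ) (hn : 2 ≤ n) : BP ↥(alternatingGroup (Fin n)) (n * n) :=
  BP_alt_carm' n hn Cfsg.Agent.Lib.Helper36BPGen.closure_c3
    (fun x h3 h2 hg => Cfsg.Agent.Lib.Helper84BPCarmcard.carm_card x h3 h2 hg)

end Cfsg.Agent.Lib.Helper17BPCarmhom
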