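import Mathlib

set_option autoImplicit false

/-! Vocabulary of project 43 (bounded presentations of `A_n` and `SL_n(q)`, statement S2290). -/

namespace Cfsg.Agent.Lib.Helper43BP

/-- `G` has a presentation (on some generator type) with at most `r` relators. -/
def BP (G : Type*) [Group G] (r : ℕ) : Prop :=
  ∃ (α : Type) (rels : Finset (FreeGroup α)), rels.card ≤ r ∧
    Nonempty (PresentedGroup (↑rels : Set (FreeGroup α)) ≃* G)

section Alt

variable {Ω : Type*} [Fintype Ω] [DecidableEq Ω]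

/-- the 3-cycle `a → b → i → a` (for distinct points); `c3 a b a = 1`. -/
def c3 (a b i : Ω) : Equiv.Perm Ω := Equiv.swap a b * Equiv.swap b i

/-- even permutations fixing every point outside `A`. -/
def altOn (A : Set Ω) : Subgroup (Equiv.Perm Ω) where
  carrier := {σ | Equiv.Perm.sign σ = 1 ∧ ∀ x, x ∉ A → σ x = x}
  one_mem' := by simp
  mul_mem' := by
    rintro σ τ ⟨h1, h2⟩ ⟨h3, h4⟩
    refine ⟨by simp [h1, h3], fun x hx => ?_⟩
    rw [Equiv.Perm.mul_apply, h4 x hx, h2 x hx]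
  inv_mem' := by
    rintro σ ⟨h1, h2⟩
    refine ⟨by simp [h1], fun x hx => ?_⟩
    rw [Equiv.Perm.inv_eq_iff_eq]
    exact (h2 x hx).symm

theorem altOn_le (A : Set Ω) : altOn A ≤ alternatingGroup Ω := fun _ h => h.1

/-- the inclusion of `altOn A` in the alternating group. -/
def incl (A : Set Ω) : ↥(altOn A) →* ↥(alternatingGroup Ω) := Subgroup.inclusion (altOn_le A)

/-- `c` is an even permutation, supported on `S ∪ {a, b}`, transitive on `S`, which fixes
(`ε = 1`) or exchanges (`ε = -1`) `a` and `b`. -/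
structure Cyc (a b : Ω) (S : Set Ω) (c : Equiv.Perm Ω) (ε : ℤˣ) : Prop where
  sign : Equiv.Perm.sign c = 1
  fix : ∀ x, x ∉ S → x ≠ a → x ≠ b → c x = x
  maps : ∀ x ∈ S, c x ∈ S
  trans : ∀ x ∈ S, ∀ y ∈ S, ∃ k : ℕ, (c ^ k) x = y
  ab : (ε = 1 ∧ c a = a ∧ c b = b) ∨ (ε = -1 ∧ c a = b ∧ c b = a)

/-- extension by `1` of a homomorphism defined on `altOn A` to a function on all permutations. -/
noncomputable def ext1 {A : Set Ω} {P : Type*} [Group P] (θ : ↥(altOn A) →* P)
    (σ : Equiv.Perm Ω) : P := by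
  classical exact if h : σ ∈ altOn A then θ ⟨σ, h⟩ else 1

theorem ext1_apply {A : Set Ω} {P : Type*} [Group P] (θ : ↥(altOn A) →* P)
    {σ : Equiv.Perm Ω} (h : σ ∈ altOn A) : ext1 θ σ = θ ⟨σ, h⟩ := by
  unfold ext1
  rw [dif_pos h]

end Alt

section AGL

/-- `x ↦ x + 1` on `ZMod p`, identity on the two extra points. -/
def uP (p : ℕ) : Equiv.Perm (ZMod p ⊕ Fin 2) :=
  Equiv.Perm.sumCongr (Equiv.addRight (1 : ZMod p)) 1

/-- `x ↦ r x` on `ZMod p`; on the two extra points the identity (`ε = 1`) or the swap. -/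
def hP (p : ℕ) (r : (ZMod p)ˣ) (ε : ℤˣ) : Equiv.Perm (ZMod p ⊕ Fin 2) :=
  Equiv.Perm.sumCongr (Units.mulLeft r) (if ε = 1 then 1 else Equiv.swap 0 1)

/-- the 3-cycle on the two extra points and `0`. -/
def zP (p : ℕ) [NeZero p] : Equiv.Perm (ZMod p ⊕ Fin 2) :=
  c3 (Sum.inr 0) (Sum.inr 1) (Sum.inl 0)

end AGL

end Cfsg.Agent.Lib.Helper43BP
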