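import Mathlib

set_option autoImplicit false

/-! Project 43, piece `aglabs`. -/

namespace Cfsg.Agent.Lib.Helper66BPAglabs

theorem sq_comm {P : Type*} [Group P] (x y : P) (h : (x * y) ^ 2 = 1) : (y * x) ^ 2 = 1 := by
  have : (y * x) ^ 2 = x⁻¹ * (x * y) ^ 2 * x := by
    simp only [pow_two]; group
  rw [this, h]; group

theorem sq_inv {P : Type*} [Group P] (x y : P) (h : (x⁻¹ * y⁻¹) ^ 2 = 1) : (x * y) ^ 2 = 1 := by
  have h1 : ((y * x) ^ 2)⁻¹ = 1 := by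
    rw [← h]; simp only [pow_two]; group
  exact sq_comm _ _ (inv_eq_one.mp h1)

theorem conj_pow' {P : Type*} [Group P] (h u : P) (n : ℕ) :
    h * u ^ n * h⁻¹ = (h * u * h⁻¹) ^ n := (conj_pow (a := h) (b := u) (i := n)).symm

theorem step {P : Type*} [Group P] (u h z : P) (r : ℕ)
    (ε : ℤˣ) (hhu : h * u * h⁻¹ = u ^ r) (hhz : h * z * h⁻¹ = z ^ (ε : ℤ)) (n : ℕ)
    (hn : (z * (u ^ n * z * (u ^ n)⁻¹)) ^ 2 = 1) :
    (z * (u ^ (r * n) * z * (u ^ (r * n))⁻¹)) ^ 2 = 1 := by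
  have h1 : h * (z * (u ^ n * z * (u ^ n)⁻¹)) ^ 2 * h⁻¹ = 1 := by rw [hn]; group
  have h2 : h * (z * (u ^ n * z * (u ^ n)⁻¹)) ^ 2 * h⁻¹ =
      ((h * z * h⁻¹) * ((h * u ^ n * h⁻¹) * (h * z * h⁻¹) * (h * u ^ n * h⁻¹)⁻¹)) ^ 2 := by
    simp only [pow_two]; group
  rw [h2, conj_pow', hhu, hhz, ← pow_mul] at h1
  rcases Int.units_eq_one_or ε with rfl | rfl
  · simpa using h1
  · apply sq_inv
    have : (u ^ (r * n) * z * (u ^ (r * n))⁻¹)⁻¹ = u ^ (r * n) * z⁻¹ * (u ^ (r * n))⁻¹ := by group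
    rw [this]
    simpa using h1

theorem all_pow {P : Type*} [Group P] (u h z : P) (r : ℕ)
    (ε : ℤˣ) (hhu : h * u * h⁻¹ = u ^ r) (hhz : h * z * h⁻¹ = z ^ (ε : ℤ))
    (hzz : (z * (u * z * u⁻¹)) ^ 2 = 1) (e : ℕ) :
    (z * (u ^ (r ^ e) * z * (u ^ (r ^ e))⁻¹)) ^ 2 = 1 := by
  induction e with
  | zero => simpa using hzz
  | succ e ih =>
    have := step u h z r ε hhu hhz _ ih
    rwa [← pow_succ'] at this

theorem agl_abs (p : ℕ) [Fact p.Prime] (r : ℕ)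
    (hr : ∀ k : ZMod p, k ≠ 0 → ∃ e : ℕ, k = (r : ZMod p) ^ e) {P : Type*} [Group P] (u h z : P)
    (ε : ℤˣ) (hu : u ^ p = 1) (hhu : h * u * h⁻¹ = u ^ r) (hhz : h * z * h⁻¹ = z ^ (ε : ℤ))
    (hzz : (z * (u * z * u⁻¹)) ^ 2 = 1) :
    ∀ i j : ZMod p, i ≠ j →
      ((u ^ i.val * z * (u ^ i.val)⁻¹) * (u ^ j.val * z * (u ^ j.val)⁻¹)) ^ 2 = 1 := by
  intro i j hij
  obtain ⟨e, he⟩ := hr (j - i) (sub_ne_zero.mpr (Ne.symm hij))
  have h1 := all_pow u h z r ε hhu hhz hzz e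
  have h2 : u ^ j.val = u ^ i.val * u ^ (r ^ e) := by
    rw [← pow_add]
    apply pow_eq_pow_of_modEq _ hu
    rw [← ZMod.natCast_eq_natCast_iff]
    push_cast
    rw [ZMod.natCast_zmod_val, ZMod.natCast_zmod_val, ← he]
    ring
  rw [h2]
  have h3 : ((u ^ i.val * z * (u ^ i.val)⁻¹) *
      (u ^ i.val * u ^ (r ^ e) * z * (u ^ i.val * u ^ (r ^ e))⁻¹)) ^ 2 =
      u ^ i.val * (z * (u ^ (r ^ e) * z * (u ^ (r ^ e))⁻¹)) ^ 2 * (u ^ i.val)⁻¹ := by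
    generalize u ^ i.val = A
    generalize u ^ (r ^ e) = B
    simp only [pow_two]; group
  rw [h3, h1]; group

end Cfsg.Agent.Lib.Helper66BPAglabs
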