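import Cfsg.Agent.Lib.Helper43BPDefs

set_option autoImplicit false

/-! Project 43, piece `aglperm`. -/

namespace Cfsg.Agent.Lib.Helper66BPAglperm

open Cfsg.Agent.Lib.Helper43BP

theorem c3_conj' {Ω : Type*} [DecidableEq Ω] [Fintype Ω] (σ : Equiv.Perm Ω) (a b i : Ω) :
    σ * c3 a b i * σ⁻¹ = c3 (σ a) (σ b) (σ i) := by
  unfold c3
  rw [Equiv.swap_apply_apply, Equiv.swap_apply_apply]
  group

theorem c3_swap' {Ω : Type*} [DecidableEq Ω] [Fintype Ω] (a b i : Ω) (hab : a ≠ b) (hia : i ≠ a)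
    (hib : i ≠ b) : c3 b a i = (c3 a b i)⁻¹ := by
  unfold c3
  rw [mul_inv_rev, Equiv.swap_inv, Equiv.swap_inv]
  ext x
  simp only [Equiv.Perm.mul_apply, Equiv.swap_apply_def]
  split_ifs <;> simp_all

theorem uP_pow_eq (p : ℕ) (n : ℕ) :
    uP p ^ n = Equiv.Perm.sumCongr (Equiv.addRight (n : ZMod p)) 1 := by
  induction n with
  | zero =>
    ext x
    rcases x with x | x <;> simp
  | succ n ih =>
    rw [pow_succ, ih]
    ext x
    rcases x with x | x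
    · simp [uP, add_comm]
    · simp [uP]

theorem uP_pow (p : ℕ) [Fact p.Prime] : uP p ^ p = 1 := by
  rw [uP_pow_eq]
  ext x
  rcases x with x | x <;> simp

theorem uP_sign (p : ℕ) [Fact p.Prime] (hp : p ≠ 2) : Equiv.Perm.sign (uP p) = 1 := by
  have h1 : Equiv.Perm.sign (uP p) ^ p = 1 := by
    rw [← map_pow, uP_pow, map_one]
  rcases Int.units_eq_one_or (Equiv.Perm.sign (uP p)) with h | h
  · exact h
  · rw [h] at h1
    have hodd : Odd p := (Fact.out : p.Prime).odd_of_ne_two hp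
    rw [hodd.neg_one_pow] at h1
    exact absurd h1 (by decide)

theorem hP_sign (p : ℕ) [Fact p.Prime] (r : (ZMod p)ˣ) :
    ∃ ε : ℤˣ, Equiv.Perm.sign (hP p r ε) = 1 := by
  refine ⟨Equiv.Perm.sign (Units.mulLeft r), ?_⟩
  unfold hP
  rw [Equiv.Perm.sign_sumCongr]
  rcases Int.units_eq_one_or (Equiv.Perm.sign (Units.mulLeft r)) with h | h
  · rw [h]; simp
  · rw [h]
    rw [if_neg (by decide)]
    rw [Equiv.Perm.sign_swap (by decide)]
    decide

theorem hP_uP (p : ℕ) [Fact p.Prime] (r : (ZMod p)ˣ) (ε : ℤˣ) (k : ℕ)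
    (hk : (k : ZMod p) = (r : ZMod p)) : hP p r ε * uP p * (hP p r ε)⁻¹ = uP p ^ k := by
  rw [uP_pow_eq, mul_inv_eq_iff_eq_mul]
  ext x
  rcases x with x | x
  · simp [hP, uP, hk, mul_add]
  · simp [hP, uP]

theorem hP_inl (p : ℕ) (r : (ZMod p)ˣ) (ε : ℤˣ) (x : ZMod p) :
    hP p r ε (Sum.inl x) = Sum.inl ((r : ZMod p) * x) := by
  simp [hP]

theorem hP_zP (p : ℕ) [Fact p.Prime] (r : (ZMod p)ˣ) (ε : ℤˣ) :
    hP p r ε * zP p * (hP p r ε)⁻¹ = zP p ^ (ε : ℤ) := by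
  unfold zP
  rw [c3_conj', hP_inl, mul_zero]
  rcases Int.units_eq_one_or ε with rfl | rfl
  · simp [hP]
  · have h0 : hP p r (-1) (Sum.inr 0) = Sum.inr 1 := by
      unfold hP
      rw [if_neg (by decide)]
      simp
    have h1 : hP p r (-1) (Sum.inr 1) = Sum.inr 0 := by
      unfold hP
      rw [if_neg (by decide)]
      simp
    rw [h0, h1, c3_swap' _ _ _ (by simp) (by simp) (by simp)]
    simp

theorem uP_zP (p : ℕ) [Fact p.Prime] (i : ZMod p) :
    uP p ^ i.val * zP p * (uP p ^ i.val)⁻¹ = c3 (Sum.inr 0) (Sum.inr 1) (Sum.inl i) := by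
  unfold zP
  rw [c3_conj', uP_pow_eq]
  simp

end Cfsg.Agent.Lib.Helper66BPAglperm
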