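import Cfsg.Agent.Lib.Helper43BPDefs

set_option autoImplicit false
set_option linter.unusedSectionVars false

namespace Cfsg.Agent.Lib.Helper72BPC3

open Cfsg.Agent.Lib.Helper43BP

variable {Ω : Type*} [Fintype Ω] [DecidableEq Ω]

theorem c3_self (a b : Ω) : c3 a b a = 1 := by
  unfold c3
  rw [Equiv.swap_comm b a, Equiv.swap_mul_self]

theorem c3_conj (σ : Equiv.Perm Ω) (a b i : Ω) : σ * c3 a b i * σ⁻¹ = c3 (σ a) (σ b) (σ i) := by
  unfold c3
  have h1 : ∀ x y : Ω, σ * Equiv.swap x y * σ⁻¹ = Equiv.swap (σ x) (σ y) := by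
    intro x y
    rw [Equiv.mul_swap_eq_swap_mul, mul_inv_cancel_right]
  rw [← h1, ← h1]
  group

theorem c3_apply (a b i x : Ω) :
    c3 a b i x = Equiv.swap a b (Equiv.swap b i x) := rfl

theorem c3_swap (a b i : Ω) (hab : a ≠ b) (hia : i ≠ a) (hib : i ≠ b) :
    c3 b a i = (c3 a b i)⁻¹ := by
  rw [eq_inv_iff_mul_eq_one]
  ext x
  simp only [Equiv.Perm.mul_apply, c3_apply, Equiv.Perm.one_apply, Equiv.swap_apply_def]
  split_ifs <;> simp_all

theorem c3_apply_a (a b i : Ω) (hab : a ≠ b) (hia : i ≠ a) : c3 a b i a = b := by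
  rw [c3_apply, Equiv.swap_apply_of_ne_of_ne hab hia.symm, Equiv.swap_apply_left]

theorem c3_apply_b (a b i : Ω) (hia : i ≠ a) (hib : i ≠ b) : c3 a b i b = i := by
  rw [c3_apply, Equiv.swap_apply_left, Equiv.swap_apply_of_ne_of_ne hia hib]

theorem c3_apply_i (a b i : Ω) : c3 a b i i = a := by
  rw [c3_apply, Equiv.swap_apply_right, Equiv.swap_apply_right]

theorem c3_apply_of_ne (a b i x : Ω) (hxa : x ≠ a) (hxb : x ≠ b) (hxi : x ≠ i) :
    c3 a b i x = x := by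
  rw [c3_apply, Equiv.swap_apply_of_ne_of_ne hxb hxi, Equiv.swap_apply_of_ne_of_ne hxa hxb]

theorem c3_pow3 (a b i : Ω) (hab : a ≠ b) (hia : i ≠ a) (hib : i ≠ b) : c3 a b i ^ 3 = 1 := by
  ext x
  simp only [pow_succ, pow_zero, one_mul, Equiv.Perm.mul_apply, Equiv.Perm.one_apply]
  by_cases hxa : x = a
  · subst hxa
    rw [c3_apply_a x b i hab hia, c3_apply_b x b i hia hib, c3_apply_i]
  by_cases hxb : x = b
  · subst hxb
    rw [c3_apply_b a x i hia hib, c3_apply_i, c3_apply_a a x i hab hia]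
  by_cases hxi : x = i
  · subst hxi
    rw [c3_apply_i, c3_apply_a a b x hab hia, c3_apply_b a b x hia hib]
  rw [c3_apply_of_ne a b i x hxa hxb hxi, c3_apply_of_ne a b i x hxa hxb hxi,
    c3_apply_of_ne a b i x hxa hxb hxi]

theorem c3_mul_sq (a b i j : Ω) (hab : a ≠ b) (hia : i ≠ a) (hib : i ≠ b) (hja : j ≠ a)
    (hjb : j ≠ b) (hij : i ≠ j) : (c3 a b i * c3 a b j) ^ 2 = 1 := by
  ext x
  simp only [pow_succ, pow_zero, one_mul, Equiv.Perm.mul_apply, Equiv.Perm.one_apply]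
  by_cases hxa : x = a
  · subst hxa
    rw [c3_apply_a x b j hab hja, c3_apply_b x b i hia hib, c3_apply_of_ne x b j i hia hib hij,
      c3_apply_i]
  by_cases hxb : x = b
  · subst hxb
    rw [c3_apply_b a x j hja hjb, c3_apply_of_ne a x i j hja hjb hij.symm, c3_apply_i,
      c3_apply_a a x i hab hia]
  by_cases hxi : x = i
  · subst hxi
    rw [c3_apply_of_ne a b j x hia hib hij, c3_apply_i, c3_apply_a a b j hab hja,
      c3_apply_b a b x hia hib]
  by_cases hxj : x = j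
  · subst hxj
    rw [c3_apply_i, c3_apply_a a b i hab hia, c3_apply_b a b x hja hjb,
      c3_apply_of_ne a b i x hja hjb hij.symm]
  rw [c3_apply_of_ne a b j x hxa hxb hxj, c3_apply_of_ne a b i x hxa hxb hxi,
    c3_apply_of_ne a b j x hxa hxb hxj, c3_apply_of_ne a b i x hxa hxb hxi]

theorem c3_mem (A : Set Ω) (a b i : Ω) (ha : a ∈ A) (hb : b ∈ A) (hi : i ∈ A) (hab : a ≠ b)
    (hib : i ≠ b) : c3 a b i ∈ altOn A := by
  refine ⟨?_, ?_⟩
  · unfold c3
    rw [map_mul, Equiv.Perm.sign_swap hab, Equiv.Perm.sign_swap hib.symm]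
    simp
  · intro x hx
    have hxa : x ≠ a := fun h => hx (h ▸ ha)
    have hxb : x ≠ b := fun h => hx (h ▸ hb)
    have hxi : x ≠ i := fun h => hx (h ▸ hi)
    rw [c3_apply, Equiv.swap_apply_of_ne_of_ne hxb hxi, Equiv.swap_apply_of_ne_of_ne hxa hxb]

theorem c3_mem_alt (a b i : Ω) (hab : a ≠ b) (hib : i ≠ b) : c3 a b i ∈ alternatingGroup Ω := by
  rw [Equiv.Perm.mem_alternatingGroup]
  unfold c3
  rw [map_mul, Equiv.Perm.sign_swap hab, Equiv.Perm.sign_swap hib.symm]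
  simp

end Cfsg.Agent.Lib.Helper72BPC3
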