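import Mathlib
import Cfsg.Agent.Lib.Helper43BPDefs
import Cfsg.Agent.Lib.Helper66BPAglabs
import Cfsg.Agent.Lib.Helper66BPAglperm
import Cfsg.Agent.Lib.Helper72BPC3
import Cfsg.Agent.Lib.Helper17BPCarmhom
import Cfsg.Agent.Lib.Helper36BPGen

set_option autoImplicit false

namespace Cfsg.Agent.Lib.Helper15BPAglpres

open Cfsg.Agent.Lib.Helper43BP
open Cfsg.Agent.Lib.Helper66BPAglabs Cfsg.Agent.Lib.Helper66BPAglperm Cfsg.Agent.Lib.Helper72BPC3
  Cfsg.Agent.Lib.Helper17BPCarmhom Cfsg.Agent.Lib.Helper36BPGen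

theorem exists_inl {p : ℕ} (ω : ZMod p ⊕ Fin 2) (h0 : ω ≠ Sum.inr 0) (h1 : ω ≠ Sum.inr 1) :
    ∃ i, ω = Sum.inl i := by
  rcases ω with i | i
  · exact ⟨i, rfl⟩
  · exfalso
    fin_cases i
    · exact h0 rfl
    · exact h1 rfl

theorem hom_eq_on_closure {G : Type*} [Group G] (K : Subgroup G) (φ : K →* G) (S : Set G)
    (hS : ∀ y ∈ S, ∃ h : y ∈ K, φ ⟨y, h⟩ = y) :
    ∀ σ ∈ Subgroup.closure S, ∃ h : σ ∈ K, φ ⟨σ, h⟩ = σ := by
  intro σ hσ
  induction hσ using Subgroup.closure_induction with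
  | mem y hy => exact hS y hy
  | one => exact ⟨one_mem _, by
      have : (⟨1, one_mem _⟩ : K) = 1 := rfl
      rw [this, map_one]⟩
  | mul y y' _ _ ih ih' =>
    obtain ⟨h, e⟩ := ih
    obtain ⟨h', e'⟩ := ih'
    refine ⟨mul_mem h h', ?_⟩
    have : (⟨y * y', mul_mem h h'⟩ : K) = ⟨y, h⟩ * ⟨y', h'⟩ := rfl
    rw [this, map_mul, e, e']
  | inv y _ ih =>
    obtain ⟨h, e⟩ := ih
    refine ⟨inv_mem h, ?_⟩
    have : (⟨y⁻¹, inv_mem h⟩ : K) = ⟨y, h⟩⁻¹ := rfl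
    rw [this, map_inv, e]

theorem BP_alt_prime (p : ℕ) [Fact p.Prime] (hp : p ≠ 2) :
    BP ↥(alternatingGroup (ZMod p ⊕ Fin 2)) 7 := by
  classical
  have hpp : p.Prime := Fact.out
  obtain ⟨g, hg⟩ := IsCyclic.exists_generator (α := (ZMod p)ˣ)
  obtain ⟨r, hr0⟩ : ∃ r : ℕ, (r : ZMod p) = (g : ZMod p) :=
    ⟨(g : ZMod p).val, ZMod.natCast_zmod_val _⟩
  have hr : ∀ k : ZMod p, k ≠ 0 → ∃ e : ℕ, k = (r : ZMod p) ^ e := by
    intro k hk
    have h1 := hg (Units.mk0 k hk)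
    rw [← mem_powers_iff_mem_zpowers] at h1
    obtain ⟨e, he⟩ := h1
    refine ⟨e, ?_⟩
    have := congrArg Units.val he
    simp only [Units.val_pow_eq_pow_val, Units.val_mk0] at this
    rw [hr0, this]
  obtain ⟨ε, hε⟩ := hP_sign p g
  have hab : (Sum.inr 0 : ZMod p ⊕ Fin 2) ≠ Sum.inr 1 := by simp
  have hgen : Subgroup.closure (Set.range (fun i : ZMod p =>
      c3 (Sum.inr 0 : ZMod p ⊕ Fin 2) (Sum.inr 1) (Sum.inl i))) = altOn Set.univ := by
    rw [← closure_c3 Set.univ (Sum.inr 0 : ZMod p ⊕ Fin 2) (Sum.inr 1) hab (Set.mem_univ _)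
      (Set.mem_univ _)]
    congr 1
    ext x
    constructor
    · rintro ⟨i, rfl⟩
      exact ⟨Sum.inl i, Set.mem_univ _, by simp, by simp, rfl⟩
    · rintro ⟨i, -, hia, hib, rfl⟩
      obtain ⟨j, rfl⟩ := exists_inl i hia hib
      exact ⟨j, rfl⟩
  have hmemU : uP p ∈ altOn (Set.univ : Set (ZMod p ⊕ Fin 2)) :=
    ⟨uP_sign p hp, fun x hx => absurd (Set.mem_univ x) hx⟩
  have hmemH : hP p g ε ∈ altOn (Set.univ : Set (ZMod p ⊕ Fin 2)) :=
    ⟨hε, fun x hx => absurd (Set.mem_univ x) hx⟩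
  rw [← hgen, ← FreeGroup.range_lift_eq_closure] at hmemU hmemH
  obtain ⟨wu, hwu⟩ := hmemU
  obtain ⟨wh, hwh⟩ := hmemH
  obtain ⟨U, hU⟩ : ∃ U : FreeGroup (Fin 3), U = FreeGroup.of 0 := ⟨_, rfl⟩
  obtain ⟨H, hH⟩ : ∃ U : FreeGroup (Fin 3), U = FreeGroup.of 1 := ⟨_, rfl⟩
  obtain ⟨Z, hZ⟩ : ∃ U : FreeGroup (Fin 3), U = FreeGroup.of 2 := ⟨_, rfl⟩
  obtain ⟨ξ, hξ⟩ : ∃ ξ : FreeGroup (ZMod p) →* FreeGroup (Fin 3),
      ξ = FreeGroup.lift (fun i => U ^ i.val * Z * (U ^ i.val)⁻¹) := ⟨_, rfl⟩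
  obtain ⟨L, hL⟩ : ∃ L : List (FreeGroup (Fin 3)), L = [U ^ p, H * U * H⁻¹ * (U ^ r)⁻¹, Z ^ 3,
      H * Z * H⁻¹ * (Z ^ (ε : ℤ))⁻¹, (Z * (U * Z * U⁻¹)) ^ 2, U⁻¹ * ξ wu, H⁻¹ * ξ wh] := ⟨_, rfl⟩
  have hLc : L.toFinset.card ≤ 7 := by
    have := List.toFinset_card_le L
    rw [hL] at this ⊢
    simpa using this
  refine ⟨Fin 3, L.toFinset, hLc, ?_⟩
  have hm : ∀ x ∈ L, x ∈ (↑L.toFinset : Set (FreeGroup (Fin 3))) := fun x hx => by simpa using hx
  obtain ⟨mk, hmk⟩ : ∃ mk : FreeGroup (Fin 3) →* PresentedGroup (↑L.toFinset : Set (FreeGroup (Fin 3))),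
    mk = PresentedGroup.mk _ := ⟨_, rfl⟩
  have hone : ∀ x ∈ L, mk x = 1 := fun x hx => by
    rw [hmk]; exact PresentedGroup.one_of_mem (hm x hx)
  have hu : mk U ^ p = 1 := by
    have := hone (U ^ p) (by simp [hL])
    rwa [map_pow] at this
  have hhu : mk H * mk U * (mk H)⁻¹ = mk U ^ r := by
    have := hone (H * U * H⁻¹ * (U ^ r)⁻¹) (by simp [hL])
    rw [map_mul, map_mul, map_mul, map_inv, map_inv, map_pow] at this
    exact mul_inv_eq_one.1 this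
  have hz3 : mk Z ^ 3 = 1 := by
    have := hone (Z ^ 3) (by simp [hL])
    rwa [map_pow] at this
  have hhz : mk H * mk Z * (mk H)⁻¹ = mk Z ^ (ε : ℤ) := by
    have := hone (H * Z * H⁻¹ * (Z ^ (ε : ℤ))⁻¹) (by simp [hL])
    rw [map_mul, map_mul, map_mul, map_inv, map_inv, map_zpow] at this
    exact mul_inv_eq_one.1 this
  have hzz : (mk Z * (mk U * mk Z * (mk U)⁻¹)) ^ 2 = 1 := by
    have := hone ((Z * (U * Z * U⁻¹)) ^ 2) (by simp [hL])
    rwa [map_pow, map_mul, map_mul, map_mul, map_inv] at this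
  have hwu' : mk U = mk (ξ wu) := by
    have := hone (U⁻¹ * ξ wu) (by simp [hL])
    rw [map_mul, map_inv] at this
    exact inv_mul_eq_one.1 this
  have hwh' : mk H = mk (ξ wh) := by
    have := hone (H⁻¹ * ξ wh) (by simp [hL])
    rw [map_mul, map_inv] at this
    exact inv_mul_eq_one.1 this
  -- the map to permutations
  obtain ⟨f, hf⟩ : ∃ f : Fin 3 → Equiv.Perm (ZMod p ⊕ Fin 2), f = ![uP p, hP p g ε, zP p] :=
    ⟨_, rfl⟩
  have hfU : FreeGroup.lift f U = uP p := by rw [hU, FreeGroup.lift_apply_of, hf]; rfl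
  have hfH : FreeGroup.lift f H = hP p g ε := by rw [hH, FreeGroup.lift_apply_of, hf]; rfl
  have hfZ : FreeGroup.lift f Z = zP p := by rw [hZ, FreeGroup.lift_apply_of, hf]; rfl
  have hcomp : ∀ w, FreeGroup.lift f (ξ w) = FreeGroup.lift (fun i : ZMod p =>
      c3 (Sum.inr 0 : ZMod p ⊕ Fin 2) (Sum.inr 1) (Sum.inl i)) w := by
    have : (FreeGroup.lift f).comp ξ = FreeGroup.lift (fun i : ZMod p =>
      c3 (Sum.inr 0 : ZMod p ⊕ Fin 2) (Sum.inr 1) (Sum.inl i)) := by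
      ext i
      rw [MonoidHom.comp_apply, hξ, FreeGroup.lift_apply_of, FreeGroup.lift_apply_of, map_mul,
        map_mul, map_inv, map_pow, hfU, hfZ, uP_zP]
    intro w
    rw [← this]; rfl
  have hzP : zP p = c3 (Sum.inr 0 : ZMod p ⊕ Fin 2) (Sum.inr 1) (Sum.inl 0) := rfl
  have hrel : ∀ x ∈ (↑L.toFinset : Set (FreeGroup (Fin 3))), FreeGroup.lift f x = 1 := by
    intro x hx
    have hx' : x ∈ L := by simpa using hx
    rw [hL] at hx'
    simp only [List.mem_cons, List.not_mem_nil, or_false] at hx'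
    rcases hx' with rfl | rfl | rfl | rfl | rfl | rfl | rfl
    · rw [map_pow, hfU, uP_pow]
    · rw [map_mul, map_mul, map_mul, map_inv, map_inv, map_pow, hfU, hfH, hP_uP p g ε r hr0,
        mul_inv_cancel]
    · rw [map_pow, hfZ, hzP]
      exact c3_pow3 _ _ _ hab (by simp) (by simp)
    · rw [map_mul, map_mul, map_mul, map_inv, map_inv, map_zpow, hfZ, hfH, hP_zP, mul_inv_cancel]
    · rw [map_pow, map_mul, map_mul, map_mul, map_inv, hfU, hfZ]
      have h1 := uP_zP p (1 : ZMod p)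
      have hv : (1 : ZMod p).val = 1 := by
        have : Fact (1 < p) := ⟨hpp.one_lt⟩
        exact ZMod.val_one p
      rw [hv, pow_one] at h1
      rw [h1, hzP]
      have h01 : (0 : ZMod p) ≠ 1 := zero_ne_one
      exact c3_mul_sq _ _ _ _ hab (by simp) (by simp) (by simp) (by simp) (by simp)
    · rw [map_mul, map_inv, hfU, hcomp, hwu, inv_mul_cancel]
    · rw [map_mul, map_inv, hfH, hcomp, hwh, inv_mul_cancel]
  obtain ⟨π, hπ⟩ : ∃ π : PresentedGroup (↑L.toFinset : Set (FreeGroup (Fin 3))) →*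
      Equiv.Perm (ZMod p ⊕ Fin 2), ∀ w, π (mk w) = FreeGroup.lift f w := by
    refine ⟨PresentedGroup.toGroup hrel, ?_⟩
    intro w
    rw [hmk]
    rfl
  -- the map from the alternating group
  obtain ⟨x, hx⟩ : ∃ x : ZMod p ⊕ Fin 2 → PresentedGroup (↑L.toFinset : Set (FreeGroup (Fin 3))),
      x = Sum.elim (fun i => mk U ^ i.val * mk Z * (mk U ^ i.val)⁻¹) (fun _ => 1) := ⟨_, rfl⟩
  have hxl : ∀ i, x (Sum.inl i) = mk U ^ i.val * mk Z * (mk U ^ i.val)⁻¹ := by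
    intro i; rw [hx]; rfl
  obtain ⟨ψ, hψ⟩ := carm_hom (Sum.inr 0 : ZMod p ⊕ Fin 2) (Sum.inr 1) hab x
    (by
      intro i hia hib
      obtain ⟨j, rfl⟩ := exists_inl i hia hib
      rw [hxl, conj_pow, hz3, mul_one, mul_inv_cancel])
    (by
      intro i j hia hib hja hjb hij
      obtain ⟨i, rfl⟩ := exists_inl i hia hib
      obtain ⟨j, rfl⟩ := exists_inl j hja hjb
      rw [hxl, hxl]
      exact agl_abs p r hr (mk U) (mk H) (mk Z) ε hu hhu hhz hzz i j (fun h => hij (by rw [h])))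
  have hc3 : ∀ i : ZMod p, c3 (Sum.inr 0 : ZMod p ⊕ Fin 2) (Sum.inr 1) (Sum.inl i) ∈
      alternatingGroup (ZMod p ⊕ Fin 2) := fun i => c3_mem_alt _ _ _ hab (by simp)
  have hψ' : ∀ i : ZMod p, ψ ⟨_, hc3 i⟩ = x (Sum.inl i) :=
    fun i => hψ (Sum.inl i) (hc3 i) (by simp) (by simp)
  have hπx : ∀ i : ZMod p, π (x (Sum.inl i)) =
      c3 (Sum.inr 0 : ZMod p ⊕ Fin 2) (Sum.inr 1) (Sum.inl i) := by
    intro i
    rw [hxl, map_mul, map_mul, map_inv, map_pow, hπ, hπ, hfU, hfZ, uP_zP]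
  have hid : ∀ σ : ↥(alternatingGroup (ZMod p ⊕ Fin 2)), π (ψ σ) = σ.1 := by
    rintro ⟨σ, hσ⟩
    have h1 : σ ∈ altOn (Set.univ : Set (ZMod p ⊕ Fin 2)) :=
      ⟨hσ, fun x hx => absurd (Set.mem_univ x) hx⟩
    rw [← hgen] at h1
    obtain ⟨h, e⟩ := hom_eq_on_closure (alternatingGroup (ZMod p ⊕ Fin 2)) (π.comp ψ) _
      (by
        rintro y ⟨i, rfl⟩
        exact ⟨hc3 i, by rw [MonoidHom.comp_apply, hψ', hπx]⟩) σ h1
    exact e
  have hinj : Function.Injective ψ := by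
    intro σ τ h
    apply Subtype.ext
    rw [← hid σ, ← hid τ, h]
  have hxr : ∀ i : ZMod p, x (Sum.inl i) ∈ ψ.range := fun i => ⟨_, hψ' i⟩
  have hξr : ∀ w, mk (ξ w) ∈ ψ.range := by
    have h1 : mk.comp ξ = FreeGroup.lift (fun i : ZMod p => x (Sum.inl i)) := by
      ext i
      rw [MonoidHom.comp_apply, hξ, FreeGroup.lift_apply_of, FreeGroup.lift_apply_of, map_mul,
        map_mul, map_inv, map_pow, hxl]
    intro w
    have h2 : mk (ξ w) = FreeGroup.lift (fun i : ZMod p => x (Sum.inl i)) w := by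
      rw [← h1]; rfl
    rw [h2]
    apply FreeGroup.range_lift_le (s := ψ.range) _ ⟨w, rfl⟩
    rintro _ ⟨i, rfl⟩
    exact hxr i
  have hsurj : Function.Surjective ψ := by
    intro y
    have := PresentedGroup.generated_by _ ψ.range (by
      intro j
      have e : (PresentedGroup.of j : PresentedGroup (↑L.toFinset : Set (FreeGroup (Fin 3)))) =
          mk (FreeGroup.of j) := by rw [hmk]; rfl
      rw [e]
      fin_cases j
      · show mk (FreeGroup.of 0) ∈ _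
        rw [← hU, hwu']; exact hξr wu
      · show mk (FreeGroup.of 1) ∈ _
        rw [← hH, hwh']; exact hξr wh
      · show mk (FreeGroup.of 2) ∈ _
        rw [← hZ]
        have := hxr 0
        rw [hxl, ZMod.val_zero, pow_zero, one_mul, inv_one, mul_one] at this
        exact this) y
    exact this
  exact ⟨(MulEquiv.ofBijective ψ ⟨hinj, hsurj⟩).symm⟩

end Cfsg.Agent.Lib.Helper15BPAglpres
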