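import Mathlib
import Cfsg.Agent.Lib.Helper43BPDefs

set_option autoImplicit false

/-! piece `coprod` of project 43: a free product of two presented groups. -/

namespace Cfsg.Agent.Lib.Helper1BPCoprod

open Cfsg.Agent.Lib.Helper43BP

theorem BP_coprod {A L : Type*} [Group A] [Group L] {r s : ℕ} (hA : BP A r) (hL : BP L s) :
    BP (Monoid.Coprod A L) (r + s) := by
  classical
  obtain ⟨α, R, hR, ⟨eA⟩⟩ := hA
  obtain ⟨β, S, hS, ⟨eL⟩⟩ := hL
  refine ⟨α ⊕ β, R.image (FreeGroup.map Sum.inl) ∪ S.image (FreeGroup.map Sum.inr), ?_, ?_⟩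
  · calc (R.image (FreeGroup.map Sum.inl) ∪ S.image (FreeGroup.map Sum.inr)).card
        ≤ (R.image (FreeGroup.map (Sum.inl : α → α ⊕ β))).card
          + (S.image (FreeGroup.map (Sum.inr : β → α ⊕ β))).card := Finset.card_union_le _ _
      _ ≤ R.card + S.card := Nat.add_le_add Finset.card_image_le Finset.card_image_le
      _ ≤ r + s := Nat.add_le_add hR hS
  · have h : ((R.image (FreeGroup.map Sum.inl) ∪ S.image (FreeGroup.map Sum.inr) :
        Finset (FreeGroup (α ⊕ β))) : Set (FreeGroup (α ⊕ β)))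
        = FreeGroup.map Sum.inl '' (R : Set (FreeGroup α))
          ∪ FreeGroup.map Sum.inr '' (S : Set (FreeGroup β)) := by
      push_cast
      rfl
    rw [h]
    exact ⟨(PresentedGroup.coprodPresentations (R : Set (FreeGroup α))
      (S : Set (FreeGroup β))).trans (MulEquiv.coprodCongr eA eL)⟩

end Cfsg.Agent.Lib.Helper1BPCoprod
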