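import Cfsg.Agent.Lib.Helper43BPDefs

set_option autoImplicit false
set_option linter.unusedSectionVars false

namespace Cfsg.Agent.Lib.Helper72BPAltonequiv

open Cfsg.Agent.Lib.Helper43BP

variable {Ω : Type*} [Fintype Ω] [DecidableEq Ω]

theorem altOn_equiv (A : Set Ω) {β : Type*} [Fintype β] [DecidableEq β] (e : β ≃ ↥A) :
    Nonempty (↥(alternatingGroup β) ≃* ↥(altOn A)) := by
  classical
  let e' : β ≃ Subtype (fun x => x ∈ A) := e
  let φ0 : ↥(alternatingGroup β) →* Equiv.Perm Ω :=
    (Equiv.Perm.extendDomainHom e').comp (alternatingGroup β).subtype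
  have hφ0 : ∀ x, φ0 x ∈ altOn A := by
    intro x
    refine ⟨?_, ?_⟩
    · change Equiv.Perm.sign ((x : Equiv.Perm β).extendDomain e') = 1
      rw [Equiv.Perm.sign_extendDomain]
      exact x.2
    · intro y hy
      exact Equiv.Perm.extendDomain_apply_not_subtype _ e' hy
  let φ : ↥(alternatingGroup β) →* ↥(altOn A) := φ0.codRestrict (altOn A) hφ0
  have hinj : Function.Injective φ := by
    intro x y hxy
    have h1 : φ0 x = φ0 y := congrArg Subtype.val hxy
    exact Subtype.ext (Equiv.Perm.extendDomainHom_injective e' h1)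
  have hsurj : Function.Surjective φ := by
    rintro ⟨σ, hσ1, hσ2⟩
    have hmaps : ∀ x, x ∈ A ↔ σ x ∈ A := by
      intro x
      constructor
      · intro hx
        by_contra h
        have h1 := hσ2 _ h
        have h2 : σ x = x := σ.injective h1
        rw [h2] at h
        exact h hx
      · intro hx
        by_contra h
        rw [hσ2 _ h] at hx
        exact h hx
    let τ : Equiv.Perm (Subtype (fun x => x ∈ A)) := σ.subtypePerm (fun x => (hmaps x).symm)
    let ρ : Equiv.Perm β := e'.permCongr.symm τ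
    have hext : ρ.extendDomain e' = σ := by
      ext y
      by_cases hy : y ∈ A
      · rw [Equiv.Perm.extendDomain_apply_subtype _ e' hy]
        simp [ρ, τ]
      · rw [Equiv.Perm.extendDomain_apply_not_subtype _ e' hy, hσ2 _ hy]
    have hρ : ρ ∈ alternatingGroup β := by
      rw [Equiv.Perm.mem_alternatingGroup, ← Equiv.Perm.sign_extendDomain ρ e', hext]
      exact hσ1
    exact ⟨⟨ρ, hρ⟩, Subtype.ext hext⟩
  exact ⟨MulEquiv.ofBijective φ ⟨hinj, hsurj⟩⟩

end Cfsg.Agent.Lib.Helper72BPAltonequiv
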