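import Cfsg.Agent.Lib.Helper43BPDefs

set_option autoImplicit false

namespace Cfsg.Agent.Lib.Helper72BPQuot

open Cfsg.Agent.Lib.Helper43BP

theorem BP_quot {G : Type*} [Group G] {r : ℕ} (h : BP G r) (T : Finset G) :
    BP (G ⧸ Subgroup.normalClosure (↑T : Set G)) (r + T.card) := by
  classical
  obtain ⟨α, rels, hcard, ⟨e⟩⟩ := h
  -- the surjection from the free group
  let π : FreeGroup α →* G := e.toMonoidHom.comp (PresentedGroup.mk (↑rels : Set (FreeGroup α)))
  have hπ : Function.Surjective π := by
    intro g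
    obtain ⟨w, hw⟩ := PresentedGroup.mk_surjective (↑rels : Set (FreeGroup α)) (e.symm g)
    exact ⟨w, by simp [π, hw]⟩
  choose w hw using hπ
  let rels' : Finset (FreeGroup α) := rels ∪ T.image w
  have hcard' : rels'.card ≤ r + T.card :=
    (Finset.card_union_le _ _).trans (Nat.add_le_add hcard Finset.card_image_le)
  let N : Subgroup G := Subgroup.normalClosure (↑T : Set G)
  -- the map from the new presented group
  have hrel : ∀ x ∈ (↑rels' : Set (FreeGroup α)),
      FreeGroup.lift (fun a => (QuotientGroup.mk' N) (π (FreeGroup.of a))) x = 1 := by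
    intro x hx
    have h1 : FreeGroup.lift (fun a => (QuotientGroup.mk' N) (π (FreeGroup.of a)))
        = (QuotientGroup.mk' N).comp π := by
      ext a
      simp
    rw [h1]
    rw [Finset.mem_coe, Finset.mem_union] at hx
    rcases hx with hx | hx
    · have : π x = 1 := by
        have h2 : PresentedGroup.mk (↑rels : Set (FreeGroup α)) x = 1 :=
          (PresentedGroup.mk_eq_one_iff).2 (Subgroup.subset_normalClosure (by exact_mod_cast hx))
        simp [π, h2]
      simp [this]
    · obtain ⟨t, ht, rfl⟩ := Finset.mem_image.1 hx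
      rw [MonoidHom.comp_apply, hw t]
      exact (QuotientGroup.eq_one_iff _).2 (Subgroup.subset_normalClosure (by exact_mod_cast ht))
  let f : PresentedGroup (↑rels' : Set (FreeGroup α)) →* G ⧸ N := PresentedGroup.toGroup hrel
  -- the map back
  have hrel2 : ∀ x ∈ (↑rels : Set (FreeGroup α)),
      FreeGroup.lift (fun a => PresentedGroup.of (rels := (↑rels' : Set (FreeGroup α))) a) x = 1 := by
    intro x hx
    have h1 : FreeGroup.lift (fun a => PresentedGroup.of (rels := (↑rels' : Set (FreeGroup α))) a)
        = PresentedGroup.mk (↑rels' : Set (FreeGroup α)) := by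
      ext a
      simp [PresentedGroup.of]
    rw [h1]
    refine (PresentedGroup.mk_eq_one_iff).2 (Subgroup.subset_normalClosure ?_)
    rw [Finset.mem_coe] at hx ⊢
    exact Finset.mem_union_left _ hx
  let g0 : G →* PresentedGroup (↑rels' : Set (FreeGroup α)) :=
    (PresentedGroup.toGroup hrel2).comp e.symm.toMonoidHom
  have hg0π : g0.comp π = PresentedGroup.mk (↑rels' : Set (FreeGroup α)) := by
    ext a
    have h1 : PresentedGroup.mk (↑rels : Set (FreeGroup α)) (FreeGroup.of a)
        = PresentedGroup.of a := rfl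
    have h2 : PresentedGroup.mk (↑rels' : Set (FreeGroup α)) (FreeGroup.of a)
        = PresentedGroup.of a := rfl
    simp only [g0, π, MonoidHom.comp_apply, h1, h2, MulEquiv.coe_toMonoidHom,
      MulEquiv.symm_apply_apply, PresentedGroup.toGroup.of]
  have hg0 : N ≤ g0.ker := by
    refine Subgroup.normalClosure_le_normal ?_
    intro t ht
    rw [SetLike.mem_coe, MonoidHom.mem_ker, ← hw t, ← MonoidHom.comp_apply, hg0π]
    refine (PresentedGroup.mk_eq_one_iff).2 (Subgroup.subset_normalClosure ?_)
    rw [Finset.mem_coe] at ht ⊢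
    exact Finset.mem_union_right _ (Finset.mem_image_of_mem _ ht)
  let g : G ⧸ N →* PresentedGroup (↑rels' : Set (FreeGroup α)) := QuotientGroup.lift N g0 hg0
  have hfmk : f.comp (PresentedGroup.mk (↑rels' : Set (FreeGroup α)))
      = (QuotientGroup.mk' N).comp π := by
    ext a
    have h2 : PresentedGroup.mk (↑rels' : Set (FreeGroup α)) (FreeGroup.of a)
        = PresentedGroup.of a := rfl
    simp only [f, MonoidHom.comp_apply, h2, PresentedGroup.toGroup.of]
  have hgf : ∀ x, g (f x) = x := by
    intro x
    obtain ⟨v, rfl⟩ := PresentedGroup.mk_surjective _ x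
    have h1 : f (PresentedGroup.mk (↑rels' : Set (FreeGroup α)) v) = QuotientGroup.mk' N (π v) :=
      DFunLike.congr_fun hfmk v
    rw [h1]
    exact DFunLike.congr_fun hg0π v
  have hfg : ∀ y, f (g y) = y := by
    intro y
    obtain ⟨t, rfl⟩ := QuotientGroup.mk'_surjective N y
    have h1 : g (QuotientGroup.mk' N t) = g0 t := rfl
    rw [h1, ← hw t]
    have h2 : g0 (π (w t)) = PresentedGroup.mk (↑rels' : Set (FreeGroup α)) (w t) :=
      DFunLike.congr_fun hg0π (w t)
    rw [h2]
    exact DFunLike.congr_fun hfmk (w t)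
  exact ⟨α, rels', hcard', ⟨MulEquiv.mk ⟨f, g, hgf, hfg⟩ (map_mul f)⟩⟩

end Cfsg.Agent.Lib.Helper72BPQuot
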