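import Mathlib
import Cfsg.Agent.Lib.Helper43BPDefs
import Cfsg.Agent.Lib.Helper15BPAglpres
import Cfsg.Agent.Lib.Helper72BPAltonequiv
import Cfsg.Agent.Lib.Helper1BPCoprod
import Cfsg.Agent.Lib.Helper72BPQuot

set_option autoImplicit false

/-! PROJECT 43, piece `bpalt`.  The piece `alt_glue` is an extra hypothesis at the end of `BP_alt'`. -/

namespace Cfsg.Agent.Lib.Helper15BPBpalt

open Cfsg.Agent.Lib.Helper43BP
open Cfsg.Agent.Lib.Helper15BPAglpres Cfsg.Agent.Lib.Helper72BPAltonequiv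
  Cfsg.Agent.Lib.Helper1BPCoprod Cfsg.Agent.Lib.Helper72BPQuot Cfsg.Agent.Lib.Helper17BPCarmhom

theorem BP_congr {G G' : Type*} [Group G] [Group G'] {r : ℕ} (e : G ≃* G') (h : BP G r) :
    BP G' r := by
  obtain ⟨α, rels, h1, ⟨f⟩⟩ := h
  exact ⟨α, rels, h1, ⟨f.trans e⟩⟩

theorem BP_mono {G : Type*} [Group G] {r s : ℕ} (h : BP G r) (hrs : r ≤ s) : BP G s := by
  obtain ⟨α, rels, h1, hf⟩ := h
  exact ⟨α, rels, h1.trans hrs, hf⟩

theorem BP_glue {A L G : Type*} [Group A] [Group L] [Group G] {r s t : ℕ} (hA : BP A r)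
    (hL : BP L s) (T : Finset (Monoid.Coprod A L)) (hT : T.card ≤ t) (f : Monoid.Coprod A L →* G)
    (hf : Function.Surjective f) (hker : f.ker = Subgroup.normalClosure (↑T : Set _)) :
    BP G (r + s + t) := by
  have h1 := BP_quot (BP_coprod hA hL) T
  have e1 : (Monoid.Coprod A L ⧸ Subgroup.normalClosure (↑T : Set (Monoid.Coprod A L))) ≃*
      (Monoid.Coprod A L ⧸ f.ker) := QuotientGroup.quotientMulEquivOfEq hker.symm
  exact BP_mono (BP_congr (e1.trans (QuotientGroup.quotientKerEquivOfSurjective f hf)) h1)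
    (by omega)

/-- an initial or final segment of `Fin n` of length `k`, shifted by `d` -/
def segEquiv (n k d : ℕ) (h : d + k ≤ n) :
    Fin k ≃ ↥({i : Fin n | d ≤ i.val ∧ i.val < d + k} : Set (Fin n)) where
  toFun j := ⟨⟨d + j.val, by have := j.2; omega⟩, by
    show d ≤ d + j.val ∧ d + j.val < d + k
    have := j.2; omega⟩
  invFun i := ⟨i.1.val - d, by
    have : d ≤ i.1.val ∧ i.1.val < d + k := i.2
    omega⟩
  left_inv j := by
    apply Fin.ext
    show d + j.val - d = j.val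
    omega
  right_inv i := by
    apply Subtype.ext
    apply Fin.ext
    have : d ≤ i.1.val ∧ i.1.val < d + k := i.2
    show d + (i.1.val - d) = i.1.val
    omega

theorem BP_seg (p : ℕ) [Fact p.Prime] (hp : p ≠ 2) (n d : ℕ) (h : d + (p + 2) ≤ n) :
    BP ↥(altOn ({i : Fin n | d ≤ i.val ∧ i.val < d + (p + 2)} : Set (Fin n))) 7 := by
  have e0 : (ZMod p ⊕ Fin 2) ≃ Fin (p + 2) :=
    Fintype.equivOfCardEq (by simp [ZMod.card])
  obtain ⟨e⟩ := altOn_equiv ({i : Fin n | d ≤ i.val ∧ i.val < d + (p + 2)} : Set (Fin n))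
    (e0.trans (segEquiv n (p + 2) d h))
  exact BP_congr e (BP_alt_prime p hp)

theorem BP_alt' (n : ℕ) (hn : 4 ≤ n)
    (alt_glue : ∀ (A B : Set (Fin n)) (_ : A ∪ B = Set.univ) (a b : Fin n) (_ : a ≠ b)
      (_ : a ∈ A ∩ B) (_ : b ∈ A ∩ B),
      ∃ T : Finset (Monoid.Coprod ↥(altOn A) ↥(altOn B)), T.card ≤ 6 ∧
        Function.Surjective (Monoid.Coprod.lift (incl A) (incl B)) ∧
        (Monoid.Coprod.lift (incl A) (incl B)).ker = Subgroup.normalClosure (↑T : Set _)) :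
    BP ↥(alternatingGroup (Fin n)) 20 := by
  by_cases h4 : n = 4
  · subst h4
    exact BP_mono (BP_alt_carm 4 (by norm_num)) (by norm_num)
  by_cases h5 : n = 5
  · subst h5
    have : Fact (Nat.Prime 3) := ⟨Nat.prime_three⟩
    have e0 : (ZMod 3 ⊕ Fin 2) ≃ Fin 5 := Fintype.equivOfCardEq (by simp [ZMod.card])
    exact BP_mono (BP_congr (Equiv.altCongrHom e0) (BP_alt_prime 3 (by norm_num))) (by norm_num)
  obtain ⟨p, hpp, hp1, hp2⟩ := Nat.exists_prime_lt_and_le_two_mul ((n - 2) / 2) (by omega)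
  have : Fact p.Prime := ⟨hpp⟩
  have hp3 : p ≠ 2 := by omega
  have hle : p + 2 ≤ n := by omega
  have hle2 : n ≤ 2 * p + 2 := by omega
  have hA := BP_seg p hp3 n 0 (by omega)
  have hB := BP_seg p hp3 n (n - (p + 2)) (by omega)
  obtain ⟨T, hT, hsurj, hker⟩ := alt_glue
    ({i : Fin n | 0 ≤ i.val ∧ i.val < 0 + (p + 2)} : Set (Fin n))
    ({i : Fin n | n - (p + 2) ≤ i.val ∧ i.val < n - (p + 2) + (p + 2)} : Set (Fin n))
    (by
      ext i
      simp only [Set.mem_union, Set.mem_ofPred_eq, Set.mem_univ, iff_true]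
      have := i.2
      omega)
    ⟨n - (p + 2), by omega⟩ ⟨n - (p + 2) + 1, by omega⟩
    (by
      intro h
      have := congrArg Fin.val h
      simp at this)
    (by
      constructor
      · show 0 ≤ n - (p + 2) ∧ n - (p + 2) < 0 + (p + 2)
        omega
      · show n - (p + 2) ≤ n - (p + 2) ∧ n - (p + 2) < n - (p + 2) + (p + 2)
        omega)
    (by
      constructor
      · show 0 ≤ n - (p + 2) + 1 ∧ n - (p + 2) + 1 < 0 + (p + 2)
        omega
      · show n - (p + 2) ≤ n - (p + 2) + 1 ∧ n - (p + 2) + 1 < n - (p + 2) + (p + 2)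
        omega)
  exact BP_glue hA hB T hT _ hsurj hker

end Cfsg.Agent.Lib.Helper15BPBpalt
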