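import Mathlib

set_option autoImplicit false

namespace Cfsg.Agent.Lib.Helper43P3

variable {Γ : Type*} [Group Γ]

/-- abstract data for the `B N U` closure argument -/
structure BN (U H : Subgroup Γ) (𝒲 : Set Γ) : Prop where
  HU : ∀ η ∈ H, ∀ y ∈ U, η * y * η⁻¹ ∈ U
  WH : ∀ w ∈ 𝒲, ∀ η ∈ H, w * η * w⁻¹ ∈ H
  one_mem : (1 : Γ) ∈ 𝒲

/-- the set `U H 𝒲 U` -/
def InC (U H : Subgroup Γ) (𝒲 : Set Γ) (x : Γ) : Prop :=
  ∃ y1 ∈ U, ∃ η ∈ H, ∃ w ∈ 𝒲, ∃ y2 ∈ U, x = y1 * η * w * y2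

namespace BN

variable {U H : Subgroup Γ} {𝒲 : Set Γ}

theorem inC_one (D : BN U H 𝒲) : InC U H 𝒲 1 :=
  ⟨1, U.one_mem, 1, H.one_mem, 1, D.one_mem, 1, U.one_mem, by simp⟩

theorem inC_mul_U (_D : BN U H 𝒲) {x : Γ} (hx : InC U H 𝒲 x) {y : Γ} (hy : y ∈ U) :
    InC U H 𝒲 (x * y) := by
  obtain ⟨y1, h1, η, hη, w, hw, y2, h2, rfl⟩ := hx
  exact ⟨y1, h1, η, hη, w, hw, y2 * y, U.mul_mem h2 hy, by group⟩

theorem inC_mul_H (D : BN U H 𝒲) {x : Γ} (hx : InC U H 𝒲 x) {k : Γ} (hk : k ∈ H) :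
    InC U H 𝒲 (x * k) := by
  obtain ⟨y1, h1, η, hη, w, hw, y2, h2, rfl⟩ := hx
  refine ⟨y1, h1, η * (w * k * w⁻¹), H.mul_mem hη (D.WH w hw k hk), w, hw, k⁻¹ * y2 * k, ?_,
    by group⟩
  have := D.HU k⁻¹ (H.inv_mem hk) y2 h2
  rwa [inv_inv] at this

/-- left multiplication by `U H U H`-type prefixes -/
theorem inC_of_form (D : BN U H 𝒲) {y1 η v k w y2 : Γ} (h1 : y1 ∈ U) (hη : η ∈ H) (hv : v ∈ U)
    (hk : k ∈ H) (hw : w ∈ 𝒲) (h2 : y2 ∈ U) : InC U H 𝒲 (y1 * η * v * k * w * y2) :=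
  ⟨y1 * (η * v * η⁻¹), U.mul_mem h1 (D.HU η hη v hv), η * k, H.mul_mem hη hk, w, hw, y2, h2,
    by group⟩

/-- closure under right multiplication by a simple reflection representative. -/
theorem inC_mul_ts {F : Type*} [Zero F] (D : BN U H 𝒲) (xs xm : F → Γ) (ts : Γ)
    (d1 : ∀ y ∈ U, ∃ a y', y = xs a * y' ∧ ts⁻¹ * y' * ts ∈ U)
    (d2 : ∀ a, a ≠ 0 → ∃ a', ∃ η ∈ H, ∃ a'', xs a * ts = xm a' * η * xs a'')
    (d3 : ∀ w ∈ 𝒲, (∀ a, w * xs a * w⁻¹ ∈ U) ∨ (∀ a, w * xm a * w⁻¹ ∈ U))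
    (d4 : ∀ w ∈ 𝒲, ∃ η ∈ H, ∃ w' ∈ 𝒲, w * ts = η * w')
    (d5 : ∀ a, xs a ∈ U) (d6 : xs 0 = 1)
    {x : Γ} (hx : InC U H 𝒲 x) : InC U H 𝒲 (x * ts) := by
  classical
  obtain ⟨y1, h1, η, hη, w, hw, y2, h2, rfl⟩ := hx
  obtain ⟨a, y', rfl, hy'⟩ := d1 y2 h2
  obtain ⟨k, hk, w', hw', hwt⟩ := d4 w hw
  by_cases ha : a = 0
  · subst ha
    rw [d6]
    have : y1 * η * w * (1 * y') * ts = y1 * η * 1 * 1 * (w * ts) * (ts⁻¹ * y' * ts) := by group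
    rw [this, hwt]
    have e : y1 * η * 1 * 1 * (k * w') * (ts⁻¹ * y' * ts)
        = y1 * η * 1 * k * w' * (ts⁻¹ * y' * ts) := by group
    rw [e]
    exact D.inC_of_form h1 hη U.one_mem hk hw' hy'
  · rcases d3 w hw with hpos | hneg
    · have : y1 * η * w * (xs a * y') * ts
          = y1 * η * (w * xs a * w⁻¹) * 1 * (w * ts) * (ts⁻¹ * y' * ts) := by group
      rw [this, hwt]
      have e : y1 * η * (w * xs a * w⁻¹) * 1 * (k * w') * (ts⁻¹ * y' * ts)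
          = y1 * η * (w * xs a * w⁻¹) * k * w' * (ts⁻¹ * y' * ts) := by group
      rw [e]
      exact D.inC_of_form h1 hη (hpos a) hk hw' hy'
    · obtain ⟨a', k', hk', a'', hst⟩ := d2 a ha
      have : y1 * η * w * (xs a * y') * ts
          = y1 * η * w * (xs a * ts) * (ts⁻¹ * y' * ts) := by group
      rw [this, hst]
      have e : y1 * η * w * (xm a' * k' * xs a'') * (ts⁻¹ * y' * ts)
          = y1 * η * (w * xm a' * w⁻¹) * (w * k' * w⁻¹) * w * (xs a'' * (ts⁻¹ * y' * ts)) := by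
        group
      rw [e]
      exact D.inC_of_form h1 hη (hneg a') (D.WH w hw k' hk') hw (U.mul_mem (d5 a'') hy')

end BN

end Cfsg.Agent.Lib.Helper43P3
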