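import Mathlib
import Cfsg.Agent.Lib.Helper43P3C

set_option autoImplicit false

/-! Vocabulary of project 43, wave 2: Steinberg systems in a group `P` mapping to `SL_n(F)`. -/

namespace Cfsg.Agent.Lib.Helper43St

open Matrix

/-- the transvection `1 + t E_{ij}` in `SL_n(F)` (`1` if `i = j`). -/
def tv {n : ℕ} {F : Type*} [Field F] (i j : Fin n) (t : F) : SpecialLinearGroup (Fin n) F :=
  if h : i ≠ j then SpecialLinearGroup.transvection h t else 1

theorem tv_val {n : ℕ} {F : Type*} [Field F] (i j : Fin n) (h : i ≠ j) (t : F) :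
    ((tv i j t : SpecialLinearGroup (Fin n) F) : Matrix (Fin n) (Fin n) F) =
      1 + Matrix.single i j t := by
  unfold tv
  rw [dif_pos h]
  rfl

theorem tv_apply {n : ℕ} {F : Type*} [Field F] (i j : Fin n) (h : i ≠ j) (t : F) (a b : Fin n) :
    (tv i j t : SpecialLinearGroup (Fin n) F) a b =
      (if a = b then 1 else 0) + (if i = a ∧ j = b then t else 0) := by
  have := congrFun (congrFun (tv_val i j h t) a) b
  rw [show (tv i j t : SpecialLinearGroup (Fin n) F) a b =
    ((tv i j t : SpecialLinearGroup (Fin n) F) : Matrix (Fin n) (Fin n) F) a b from rfl, this]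
  simp [Matrix.one_apply, Matrix.single_apply]

theorem tv_inv {n : ℕ} {F : Type*} [Field F] (i j : Fin n) (t : F) :
    (tv i j t : SpecialLinearGroup (Fin n) F)⁻¹ = tv i j (-t) := by
  unfold tv
  split_ifs with h
  · exact SpecialLinearGroup.transvection_inv h t
  · simp

/-- sample of the brute-force recipe for identities in `SL_3(F)`. -/
example {F : Type*} [Field F] (a : F) (ha : a ≠ 0) :
    (tv 0 1 a : SpecialLinearGroup (Fin 3) F) * (tv 0 1 1 * tv 1 0 (-1⁻¹) * tv 0 1 1) =
      tv 1 0 a⁻¹ * ((tv 0 1 (-a) * tv 1 0 (-(-a)⁻¹) * tv 0 1 (-a)) *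
        (tv 0 1 1 * tv 1 0 (-1⁻¹) * tv 0 1 1)⁻¹) * tv 0 1 (-a⁻¹) := by
  simp only [_root_.mul_inv_rev, tv_inv]
  ext i j
  fin_cases i <;> fin_cases j <;>
    simp [Matrix.mul_apply, Fin.sum_univ_three, tv_apply, ha]

/-- A family of root elements `x i j t` (`i ≠ j`) in `P` such that every three indices span an
image of `SL_3(F)`, root elements with disjoint indices commute, the `x i j t` generate `P`,
and `π : P → SL_n(F)` sends `x i j t` to the transvection. -/
structure StSys (n : ℕ) (F : Type*) [Field F] (P : Type*) [Group P] where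
  x : Fin n → Fin n → F → P
  tri : ∀ τ : Fin 3 → Fin n, Function.Injective τ →
    ∃ f : SpecialLinearGroup (Fin 3) F →* P, ∀ a b t, a ≠ b → f (tv a b t) = x (τ a) (τ b) t
  dis : ∀ i j k l : Fin n, i ≠ j → k ≠ l → i ≠ k → i ≠ l → j ≠ k → j ≠ l →
    ∀ s t, Commute (x i j s) (x k l t)
  π : P →* SpecialLinearGroup (Fin n) F
  hπ : ∀ i j t, i ≠ j → π (x i j t) = tv i j t
  gen : Subgroup.closure {g | ∃ i j t, i ≠ j ∧ g = x i j t} = ⊤

namespace StSys

variable {n : ℕ} {F : Type*} [Field F] {P : Type*} [Group P] (S : StSys n F P)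

/-- `w_{ij}(a) = x_{ij}(a) x_{ji}(-a⁻¹) x_{ij}(a)` -/
def w (i j : Fin n) (a : F) : P := S.x i j a * S.x j i (-a⁻¹) * S.x i j a

/-- `h_{ij}(a) = w_{ij}(a) w_{ij}(1)⁻¹` -/
def hh (i j : Fin n) (a : F) : P := S.w i j a * (S.w i j 1)⁻¹

/-- upper unitriangular part -/
def U : Subgroup P := Subgroup.closure {g | ∃ i j t, i < j ∧ g = S.x i j t}

/-- generated by the positive root elements whose column index is `< k` -/
def Uk (k : ℕ) : Subgroup P := Subgroup.closure {g | ∃ i j t, i < j ∧ j.val < k ∧ g = S.x i j t}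

/-- generated by the positive root elements in column `k` -/
def V (k : Fin n) : Subgroup P := Subgroup.closure {g | ∃ i t, i < k ∧ g = S.x i k t}

/-- generated by the positive root elements other than those of the root `(i, j)` -/
def U' (i j : Fin n) : Subgroup P :=
  Subgroup.closure {g | ∃ k l t, k < l ∧ (k, l) ≠ (i, j) ∧ g = S.x k l t}

/-- the torus -/
def H : Subgroup P := Subgroup.closure {g | ∃ i j a, i ≠ j ∧ a ≠ 0 ∧ g = S.hh i j a}

/-- generated by the simple coroot elements `h_{i,i+1}(a)` with `i + 1 ≤ k` -/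
def Hk (k : ℕ) : Subgroup P :=
  Subgroup.closure {g | ∃ i j a, j.val = i.val + 1 ∧ j.val ≤ k ∧ a ≠ 0 ∧ g = S.hh i j a}

/-- generated by the simple reflections `w_{i,i+1}(1)` -/
def N : Subgroup P := Subgroup.closure {g | ∃ i j, j.val = i.val + 1 ∧ g = S.w i j 1}

/-- the group generated by the torus and the simple reflections -/
def NH : Subgroup P := S.H ⊔ S.N

end StSys

end Cfsg.Agent.Lib.Helper43St
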