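import Mathlib
import Cfsg.Agent.Lib.Helper43BPDefs
import Cfsg.Agent.Lib.Helper43StDefs

set_option autoImplicit false

/-! Vocabulary of project 43, wave 3: gluing `A_n` and `SL_3(F)` to `SL_n(F)`, `n = m + 4`. -/

namespace Cfsg.Agent.Lib.Helper43Gl

open Matrix Cfsg.Agent.Lib.Helper43BP Cfsg.Agent.Lib.Helper43St

/-- `w_{ij}(a)` in `SL_n(F)` -/
def wv {n : ℕ} {F : Type*} [Field F] (i j : Fin n) (a : F) : SpecialLinearGroup (Fin n) F :=
  tv i j a * tv j i (-a⁻¹) * tv i j a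

/-- `h_{ij}(a)` in `SL_n(F)` -/
def hv {n : ℕ} {F : Type*} [Field F] (i j : Fin n) (a : F) : SpecialLinearGroup (Fin n) F :=
  wv i j a * (wv i j 1)⁻¹

/-- the permutation matrix `e_i ↦ e_j ↦ e_k ↦ e_i`, as a word in transvections -/
def p3 {n : ℕ} (F : Type*) [Field F] (i j k : Fin n) : SpecialLinearGroup (Fin n) F :=
  wv i j 1 * wv j k 1 * hv i j (-1)

/-- the alternating group of degree `m + 4` -/
abbrev An (m : ℕ) := ↥(alternatingGroup (Fin (m + 4)))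

theorem val2 (m : ℕ) : ((2 : Fin (m + 4)) : ℕ) = 2 := by
  show 2 % (m + 4) = 2
  exact Nat.mod_eq_of_lt (by omega)
theorem val3 (m : ℕ) : ((3 : Fin (m + 4)) : ℕ) = 3 := by
  show 3 % (m + 4) = 3
  exact Nat.mod_eq_of_lt (by omega)
theorem val1 (m : ℕ) : ((1 : Fin (m + 4)) : ℕ) = 1 := by
  show 1 % (m + 4) = 1
  exact Nat.mod_eq_of_lt (by omega)
theorem val0 (m : ℕ) : ((0 : Fin (m + 4)) : ℕ) = 0 := rfl

theorem ne01 (m : ℕ) : (0 : Fin (m + 4)) ≠ 1 := by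
  intro h; have := congrArg Fin.val h; rw [val0, val1] at this; omega
theorem ne02 (m : ℕ) : (0 : Fin (m + 4)) ≠ 2 := by
  intro h; have := congrArg Fin.val h; rw [val0, val2] at this; omega
theorem ne03 (m : ℕ) : (0 : Fin (m + 4)) ≠ 3 := by
  intro h; have := congrArg Fin.val h; rw [val0, val3] at this; omega
theorem ne12 (m : ℕ) : (1 : Fin (m + 4)) ≠ 2 := by
  intro h; have := congrArg Fin.val h; rw [val1, val2] at this; omega
theorem ne13 (m : ℕ) : (1 : Fin (m + 4)) ≠ 3 := by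
  intro h; have := congrArg Fin.val h; rw [val1, val3] at this; omega
theorem ne23 (m : ℕ) : (2 : Fin (m + 4)) ≠ 3 := by
  intro h; have := congrArg Fin.val h; rw [val2, val3] at this; omega

/-- the 3-cycle `0 → 1 → 2 → 0` -/
def cA (m : ℕ) : An m := ⟨c3 0 1 2, by
  rw [Equiv.Perm.mem_alternatingGroup]
  simp [c3, Equiv.Perm.sign_swap (ne01 m), Equiv.Perm.sign_swap (ne12 m)]⟩

/-- `(0 1)(2 3)` -/
def tauA (m : ℕ) : An m := ⟨Equiv.swap 0 1 * Equiv.swap 2 3, by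
  rw [Equiv.Perm.mem_alternatingGroup]
  simp [Equiv.Perm.sign_swap (ne01 m), Equiv.Perm.sign_swap (ne23 m)]⟩

/-- `(0 2)(1 3)` -/
def sigA (m : ℕ) : An m := ⟨Equiv.swap 0 2 * Equiv.swap 1 3, by
  rw [Equiv.Perm.mem_alternatingGroup]
  simp [Equiv.Perm.sign_swap (ne02 m), Equiv.Perm.sign_swap (ne13 m)]⟩

/-- the data obtained in a group `P` glued from `A_n` and `SL_3(F)`. -/
structure GSys (m : ℕ) (F : Type*) [Field F] (P : Type*) [Group P] where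
  θ : An m →* P
  ι : SpecialLinearGroup (Fin 3) F →* P
  π : P →* SpecialLinearGroup (Fin (m + 4)) F
  sw : SpecialLinearGroup (Fin 3) F →* SpecialLinearGroup (Fin 3) F
  hsw : ∀ a b t, a ≠ b → sw (tv a b t) = tv (Equiv.swap 0 1 a) (Equiv.swap 0 1 b) t
  k1 : θ (cA m) = ι (p3 F 0 1 2)
  k2 : ∀ a : An m, a.1 0 = 0 → a.1 1 = 1 → ∀ t, Commute (θ a) (ι (tv 0 1 t))
  k3 : ∀ t, θ (tauA m) * ι (tv 0 1 t) * (θ (tauA m))⁻¹ = ι (tv 1 0 t)
  k4 : ∀ s t, Commute (ι (tv 0 1 s)) (θ (sigA m) * ι (tv 0 1 t) * (θ (sigA m))⁻¹)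
  k4' : ∀ s t, Commute (ι (tv 0 1 s)) (θ (sigA m) * ι (tv 1 0 t) * (θ (sigA m))⁻¹)
  gen : Subgroup.closure (Set.range θ ∪ Set.range ι) = ⊤
  hπι : ∀ t, π (ι (tv 0 1 t)) = tv 0 1 t
  hπθ : ∀ (σ : An m) i j t, i ≠ j → π (θ σ) * tv i j t * (π (θ σ))⁻¹ = tv (σ.1 i) (σ.1 j) t

open Classical in
/-- the root elements of a glued group -/
noncomputable def GSys.x {m : ℕ} {F : Type*} [Field F] {P : Type*} [Group P] (G : GSys m F P)
    (i j : Fin (m + 4)) (t : F) : P :=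
  if h : ∃ σ : An m, σ.1 0 = i ∧ σ.1 1 = j then
    G.θ h.choose * G.ι (tv 0 1 t) * (G.θ h.choose)⁻¹ else 1

/-- the three generators of the `SL_2` on the first two coordinates -/
def gs (F : Type*) [Field F] (ζ : F) : Set (SpecialLinearGroup (Fin 3) F) :=
  {tv 0 1 1, hv 0 1 ζ, wv 0 1 1}

/-- the free product `A_n * SL_3(F)` -/
abbrev CP (m : ℕ) (F : Type*) [Field F] := Monoid.Coprod (An m) (SpecialLinearGroup (Fin 3) F)

/-- `inl` -/
def il {m : ℕ} {F : Type*} [Field F] (a : An m) : CP m F := Monoid.Coprod.inl a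

/-- `inr` -/
def ir {m : ℕ} {F : Type*} [Field F] (g : SpecialLinearGroup (Fin 3) F) : CP m F :=
  Monoid.Coprod.inr g

open Classical in
/-- the 19 gluing relators in the free product `A_n * SL_3(F)` -/
noncomputable def relT (m : ℕ) (F : Type*) [Field F] (a1 a2 : An m) (ζ : F)
    (sw : SpecialLinearGroup (Fin 3) F →* SpecialLinearGroup (Fin 3) F) : Finset (CP m F) :=
  let g : Finset (SpecialLinearGroup (Fin 3) F) := {tv 0 1 1, hv 0 1 ζ, wv 0 1 1}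
  ({il (cA m) * (ir (p3 F 0 1 2))⁻¹} : Finset (CP m F)) ∪
  (({a1, a2} : Finset (An m)) ×ˢ g).image (fun z => (il z.1 * ir z.2 * (il z.1)⁻¹ * (ir z.2)⁻¹ : CP m F)) ∪
  g.image (fun z => (il (tauA m) * ir z * (il (tauA m))⁻¹ * (ir (sw z))⁻¹ : CP m F)) ∪
  (g ×ˢ g).image (fun z => (ir z.1 * (il (sigA m) * ir z.2 * (il (sigA m))⁻¹) * (ir z.1)⁻¹ *
    (il (sigA m) * ir z.2 * (il (sigA m))⁻¹)⁻¹ : CP m F))

end Cfsg.Agent.Lib.Helper43Gl
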