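import Mathlib
import Cfsg.Agent.Lib.Helper43GlDefs

set_option autoImplicit false

/-! PROJECT 43 wave 3, piece `pm`. -/

namespace Cfsg.Agent.Lib.Helper15BPPm

open Matrix Cfsg.Agent.Lib.Helper43BP Cfsg.Agent.Lib.Helper43St Cfsg.Agent.Lib.Helper43Gl

section gen

variable {n : ℕ} {F : Type*} [Field F]

theorem ext_e {A B : SpecialLinearGroup (Fin n) F}
    (h : ∀ k : Fin n, A.1 *ᵥ Pi.single k 1 = B.1 *ᵥ Pi.single k 1) : A = B := by
  apply Subtype.ext
  ext i j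
  have := congrFun (h j) i
  rw [Matrix.mulVec_single_one, Matrix.mulVec_single_one] at this
  exact this

theorem mul_e (A B : SpecialLinearGroup (Fin n) F) (v : Fin n → F) :
    (A * B).1 *ᵥ v = A.1 *ᵥ (B.1 *ᵥ v) := by
  rw [Matrix.mulVec_mulVec]
  rfl

theorem inv_e {A : SpecialLinearGroup (Fin n) F} {v w : Fin n → F} (h : A.1 *ᵥ v = w) :
    (A⁻¹).1 *ᵥ w = v := by
  rw [← h, ← mul_e, inv_mul_cancel]
  exact Matrix.one_mulVec v

theorem tv_e (i j : Fin n) (hij : i ≠ j) (t : F) (k : Fin n) :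
    (tv i j t : SpecialLinearGroup (Fin n) F).1 *ᵥ Pi.single k 1 =
      Pi.single k 1 + (if j = k then t else 0) • Pi.single i 1 := by
  rw [Matrix.mulVec_single_one]
  funext a
  have h1 : (tv i j t : SpecialLinearGroup (Fin n) F).1.col k a =
      (if a = k then 1 else 0) + (if i = a ∧ j = k then t else 0) := tv_apply i j hij t a k
  rw [h1]
  simp only [Pi.add_apply, Pi.smul_apply, Pi.single_apply, smul_eq_mul]
  by_cases h2 : j = k <;> by_cases h3 : i = a <;> simp [h2, h3, eq_comm]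

theorem tv_e_ne (i j : Fin n) (hij : i ≠ j) (t : F) (k : Fin n) (hjk : j ≠ k) :
    (tv i j t : SpecialLinearGroup (Fin n) F).1 *ᵥ Pi.single k 1 = Pi.single k 1 := by
  rw [tv_e i j hij, if_neg hjk, zero_smul, add_zero]

theorem tv_e_eq (i j : Fin n) (hij : i ≠ j) (t : F) :
    (tv i j t : SpecialLinearGroup (Fin n) F).1 *ᵥ Pi.single j 1 =
      Pi.single j 1 + t • Pi.single i 1 := by
  rw [tv_e i j hij, if_pos rfl]

theorem wv_e_other (i j : Fin n) (hij : i ≠ j) (a : F) (k : Fin n) (hik : i ≠ k) (hjk : j ≠ k) :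
    (wv i j a : SpecialLinearGroup (Fin n) F).1 *ᵥ Pi.single k 1 = Pi.single k 1 := by
  unfold wv
  rw [mul_e, mul_e, tv_e_ne i j hij a k hjk, tv_e_ne j i hij.symm _ k hik, tv_e_ne i j hij a k hjk]

theorem wv_e_left (i j : Fin n) (hij : i ≠ j) (a : F) (ha : a ≠ 0) :
    (wv i j a : SpecialLinearGroup (Fin n) F).1 *ᵥ Pi.single i 1 = (-a⁻¹) • Pi.single j 1 := by
  unfold wv
  rw [mul_e, mul_e, tv_e_ne i j hij a i hij.symm, tv_e_eq j i hij.symm, Matrix.mulVec_add,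
    Matrix.mulVec_smul, tv_e_ne i j hij a i hij.symm, tv_e_eq i j hij, smul_add, smul_smul,
    neg_mul, inv_mul_cancel₀ ha]
  module

theorem wv_e_right (i j : Fin n) (hij : i ≠ j) (a : F) (ha : a ≠ 0) :
    (wv i j a : SpecialLinearGroup (Fin n) F).1 *ᵥ Pi.single j 1 = a • Pi.single i 1 := by
  unfold wv
  rw [mul_e, mul_e, tv_e_eq i j hij, Matrix.mulVec_add, Matrix.mulVec_smul,
    tv_e_ne j i hij.symm _ j hij, tv_e_eq j i hij.symm, smul_add, smul_smul, mul_neg,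
    mul_inv_cancel₀ ha]
  have : (Pi.single j 1 + (a • Pi.single i 1 + (-1 : F) • Pi.single j 1) : Fin n → F) =
      a • Pi.single i 1 := by module
  rw [this, Matrix.mulVec_smul, tv_e_ne i j hij a i hij.symm]

theorem hv_e_other (i j : Fin n) (hij : i ≠ j) (a : F) (k : Fin n) (hik : i ≠ k) (hjk : j ≠ k) :
    (hv i j a : SpecialLinearGroup (Fin n) F).1 *ᵥ Pi.single k 1 = Pi.single k 1 := by
  unfold hv
  rw [mul_e, inv_e (wv_e_other i j hij 1 k hik hjk), wv_e_other i j hij a k hik hjk]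

theorem hv_e_left (i j : Fin n) (hij : i ≠ j) (a : F) (ha : a ≠ 0) :
    (hv i j a : SpecialLinearGroup (Fin n) F).1 *ᵥ Pi.single i 1 = a • Pi.single i 1 := by
  unfold hv
  have h1 := wv_e_right (F := F) i j hij 1 one_ne_zero
  rw [one_smul] at h1
  rw [mul_e, inv_e h1, wv_e_right i j hij a ha]

theorem hv_e_right (i j : Fin n) (hij : i ≠ j) (a : F) (ha : a ≠ 0) :
    (hv i j a : SpecialLinearGroup (Fin n) F).1 *ᵥ Pi.single j 1 = a⁻¹ • Pi.single j 1 := by
  unfold hv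
  have h1 : (wv i j 1 : SpecialLinearGroup (Fin n) F).1 *ᵥ ((-1 : F) • Pi.single i 1) =
      Pi.single j 1 := by
    rw [Matrix.mulVec_smul, wv_e_left (F := F) i j hij 1 one_ne_zero, smul_smul]
    simp
  rw [mul_e, inv_e h1, Matrix.mulVec_smul, wv_e_left i j hij a ha, smul_smul]
  simp

theorem p3_e0 (i j k : Fin n) (hij : i ≠ j) (hik : i ≠ k) (hjk : j ≠ k) :
    (p3 F i j k).1 *ᵥ Pi.single i 1 = Pi.single j 1 := by
  unfold p3
  rw [mul_e, mul_e, hv_e_left i j hij (-1) (by simp), Matrix.mulVec_smul, Matrix.mulVec_smul,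
    wv_e_other j k hjk 1 i hij.symm hik.symm, wv_e_left i j hij 1 one_ne_zero, smul_smul]
  simp

theorem p3_e1 (i j k : Fin n) (hij : i ≠ j) (hik : i ≠ k) (hjk : j ≠ k) :
    (p3 F i j k).1 *ᵥ Pi.single j 1 = Pi.single k 1 := by
  unfold p3
  rw [mul_e, mul_e, hv_e_right i j hij (-1) (by simp), Matrix.mulVec_smul, Matrix.mulVec_smul,
    wv_e_left j k hjk 1 one_ne_zero, Matrix.mulVec_smul, wv_e_other i j hij 1 k hik hjk, smul_smul]
  simp

theorem p3_e2 (i j k : Fin n) (hij : i ≠ j) (hik : i ≠ k) (hjk : j ≠ k) :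
    (p3 F i j k).1 *ᵥ Pi.single k 1 = Pi.single i 1 := by
  unfold p3
  rw [mul_e, mul_e, hv_e_other i j hij (-1) k hik hjk, wv_e_right j k hjk 1 one_ne_zero,
    Matrix.mulVec_smul, wv_e_right i j hij 1 one_ne_zero, smul_smul]
  simp

theorem p3_e_other (i j k l : Fin n) (hij : i ≠ j) (hik : i ≠ k) (hjk : j ≠ k) (hil : i ≠ l)
    (hjl : j ≠ l) (hkl : k ≠ l) : (p3 F i j k).1 *ᵥ Pi.single l 1 = Pi.single l 1 := by
  unfold p3
  rw [mul_e, mul_e, hv_e_other i j hij (-1) l hil hjl, wv_e_other j k hjk 1 l hjl hkl,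
    wv_e_other i j hij 1 l hil hjl]

/-- permutation matrices of even permutations -/
def pmHom (n : ℕ) (F : Type*) [Field F] :
    ↥(alternatingGroup (Fin n)) →* SpecialLinearGroup (Fin n) F where
  toFun σ := ⟨(σ.1⁻¹).permMatrix F, by
    rw [Matrix.det_permutation, Equiv.Perm.sign_inv, Equiv.Perm.mem_alternatingGroup.1 σ.2]
    simp⟩
  map_one' := by
    apply Subtype.ext
    show ((1 : Equiv.Perm (Fin n))⁻¹).permMatrix F = 1
    rw [inv_one, Matrix.permMatrix_one]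
  map_mul' σ τ := by
    apply Subtype.ext
    show ((σ.1 * τ.1)⁻¹).permMatrix F = (σ.1⁻¹).permMatrix F * (τ.1⁻¹).permMatrix F
    rw [_root_.mul_inv_rev, Matrix.permMatrix_mul]

theorem pmHom_e (σ : ↥(alternatingGroup (Fin n))) (k : Fin n) :
    (pmHom n F σ).1 *ᵥ Pi.single k 1 = Pi.single (σ.1 k) 1 := by
  show (σ.1⁻¹).permMatrix F *ᵥ Pi.single k 1 = _
  rw [Matrix.permMatrix_mulVec]
  funext a
  simp only [Function.comp_apply, Pi.single_apply]
  by_cases h : a = σ.1 k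
  · rw [if_pos h, if_pos (by rw [h]; simp)]
  · rw [if_neg h, if_neg (fun h' => h (by rw [← h']; simp))]

theorem pmHom_conj (σ : ↥(alternatingGroup (Fin n))) (i j : Fin n) (t : F) (hij : i ≠ j) :
    pmHom n F σ * tv i j t * (pmHom n F σ)⁻¹ = tv (σ.1 i) (σ.1 j) t := by
  rw [mul_inv_eq_iff_eq_mul]
  apply ext_e
  intro k
  rw [mul_e, mul_e, tv_e i j hij, pmHom_e, tv_e _ _ (σ.1.injective.ne hij), Matrix.mulVec_add,
    Matrix.mulVec_smul, pmHom_e, pmHom_e]
  by_cases h : j = k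
  · rw [if_pos h, if_pos (by rw [h])]
  · rw [if_neg h, if_neg (fun h' => h (σ.1.injective h'))]

end gen

-- piece `pm`
theorem exists_pm (m : ℕ) (F : Type*) [Field F] :
    ∃ pm : An m →* SpecialLinearGroup (Fin (m + 4)) F,
      (∀ (σ : An m) i j t, i ≠ j → pm σ * tv i j t * (pm σ)⁻¹ = tv (σ.1 i) (σ.1 j) t) ∧
      pm (cA m) = p3 F 0 1 2 := by
  refine ⟨pmHom (m + 4) F, fun σ i j t hij => pmHom_conj σ i j t hij, ?_⟩
  apply ext_e
  intro k
  rw [pmHom_e]
  have h01 := ne01 m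
  have h02 := ne02 m
  have h12 := ne12 m
  show Pi.single (c3 0 1 2 k) 1 = _
  unfold c3
  by_cases k0 : k = 0
  · subst k0
    rw [p3_e0 _ _ _ h01 h02 h12, Equiv.Perm.mul_apply, Equiv.swap_apply_of_ne_of_ne h01 h02,
      Equiv.swap_apply_left]
  · by_cases k1 : k = 1
    · subst k1
      rw [p3_e1 _ _ _ h01 h02 h12, Equiv.Perm.mul_apply, Equiv.swap_apply_left,
        Equiv.swap_apply_of_ne_of_ne h02.symm h12.symm]
    · by_cases k2 : k = 2
      · subst k2
        rw [p3_e2 _ _ _ h01 h02 h12, Equiv.Perm.mul_apply, Equiv.swap_apply_right,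
          Equiv.swap_apply_right]
      · rw [p3_e_other _ _ _ k h01 h02 h12 (Ne.symm k0) (Ne.symm k1) (Ne.symm k2),
          Equiv.Perm.mul_apply, Equiv.swap_apply_of_ne_of_ne k1 k2,
          Equiv.swap_apply_of_ne_of_ne k0 k1]

end Cfsg.Agent.Lib.Helper15BPPm
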