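import Cfsg.Agent.Lib.Helper43GlDefs

set_option autoImplicit false

/-! PROJECT 43 wave 3, pieces `xwd`, `xequiv`, `gpi` (`ext2` is the extra last hypothesis of the last two). -/

namespace Cfsg.Agent.Lib.Helper30BPXwd

open Matrix Cfsg.Agent.Lib.Helper43BP Cfsg.Agent.Lib.Helper43St Cfsg.Agent.Lib.Helper43Gl

variable {m : ℕ} {F : Type*} [Field F] {P : Type*} [Group P] (G : GSys m F P)

-- piece `xwd`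
theorem x_wd (σ : An m) (t : F) :
    G.θ σ * G.ι (tv 0 1 t) * (G.θ σ)⁻¹ = G.x (σ.1 0) (σ.1 1) t := by
  have hex : ∃ σ' : An m, σ'.1 0 = σ.1 0 ∧ σ'.1 1 = σ.1 1 := ⟨σ, rfl, rfl⟩
  unfold GSys.x
  rw [dif_pos hex]
  obtain ⟨h0, h1⟩ := hex.choose_spec
  set σ' := hex.choose with hσ'
  have hfix0 : (σ'⁻¹ * σ).1 0 = 0 := by
    show (σ'.1)⁻¹ (σ.1 0) = 0
    rw [← h0]
    simp
  have hfix1 : (σ'⁻¹ * σ).1 1 = 1 := by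
    show (σ'.1)⁻¹ (σ.1 1) = 1
    rw [← h1]
    simp
  have hc := G.k2 (σ'⁻¹ * σ) hfix0 hfix1 t
  have e : G.θ σ = G.θ σ' * G.θ (σ'⁻¹ * σ) := by
    rw [← map_mul]; simp
  rw [e, _root_.mul_inv_rev]
  have : G.θ σ' * G.θ (σ'⁻¹ * σ) * G.ι (tv 0 1 t) * ((G.θ (σ'⁻¹ * σ))⁻¹ * (G.θ σ')⁻¹) =
      G.θ σ' * (G.θ (σ'⁻¹ * σ) * G.ι (tv 0 1 t) * (G.θ (σ'⁻¹ * σ))⁻¹) * (G.θ σ')⁻¹ := by group
  rw [this, hc.eq, mul_assoc (G.ι (tv 0 1 t)), mul_inv_cancel, mul_one]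

-- piece `xequiv`
theorem x_equiv (σ : An m) (i j : Fin (m + 4)) (hij : i ≠ j) (t : F)
    (ext2 : ∀ (i j : Fin (m + 4)), i ≠ j → ∃ σ : An m, σ.1 0 = i ∧ σ.1 1 = j) :
    G.θ σ * G.x i j t * (G.θ σ)⁻¹ = G.x (σ.1 i) (σ.1 j) t := by
  obtain ⟨ρ, rfl, rfl⟩ := ext2 i j hij
  rw [← x_wd G ρ t]
  have := x_wd G (σ * ρ) t
  rw [map_mul, _root_.mul_inv_rev] at this
  have e : G.θ σ * (G.θ ρ * G.ι (tv 0 1 t) * (G.θ ρ)⁻¹) * (G.θ σ)⁻¹ =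
      G.θ σ * G.θ ρ * G.ι (tv 0 1 t) * ((G.θ ρ)⁻¹ * (G.θ σ)⁻¹) := by group
  rw [e, this]
  rfl

-- piece `gpi`
theorem g_pi (i j : Fin (m + 4)) (t : F) (hij : i ≠ j)
    (ext2 : ∀ (i j : Fin (m + 4)), i ≠ j → ∃ σ : An m, σ.1 0 = i ∧ σ.1 1 = j) :
    G.π (G.x i j t) = tv i j t := by
  obtain ⟨ρ, rfl, rfl⟩ := ext2 i j hij
  rw [← x_wd G ρ t, map_mul, map_mul, map_inv, G.hπι]
  exact G.hπθ ρ 0 1 t (ne01 m)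

end Cfsg.Agent.Lib.Helper30BPXwd
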