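import Mathlib
import Cfsg.Agent.Lib.Helper43GlDefs
import Cfsg.Agent.Lib.Helper15BPPm
import Cfsg.Agent.Lib.Helper72BPC3
import Cfsg.Agent.Lib.Helper30BPXwd

set_option autoImplicit false

/-! PROJECT 43 wave 3, piece `xcs`. -/

namespace Cfsg.Agent.Lib.Helper15BPXcs

open Matrix Cfsg.Agent.Lib.Helper43BP Cfsg.Agent.Lib.Helper43St Cfsg.Agent.Lib.Helper43Gl
open Cfsg.Agent.Lib.Helper15BPPm Cfsg.Agent.Lib.Helper72BPC3 Cfsg.Agent.Lib.Helper30BPXwd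

section gen

variable {n : ℕ} {F : Type*} [Field F]

theorem p3_eq (i j k : Fin n) (hij : i ≠ j) (hik : i ≠ k) (hjk : j ≠ k) :
    p3 F i j k = pmHom n F ⟨c3 i j k, c3_mem_alt i j k hij hjk.symm⟩ := by
  apply ext_e
  intro l
  rw [pmHom_e]
  show _ = Pi.single (c3 i j k l) 1
  by_cases k0 : l = i
  · subst k0
    rw [p3_e0 _ _ _ hij hik hjk, c3_apply_a _ _ _ hij hik.symm]
  · by_cases k1 : l = j
    · subst k1
      rw [p3_e1 _ _ _ hij hik hjk, c3_apply_b _ _ _ hik.symm hjk.symm]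
    · by_cases k2 : l = k
      · subst k2
        rw [p3_e2 _ _ _ hij hik hjk, c3_apply_i]
      · rw [p3_e_other _ _ _ l hij hik hjk (Ne.symm k0) (Ne.symm k1) (Ne.symm k2),
          c3_apply_of_ne _ _ _ _ k0 k1 k2]

theorem p3_conj (i j k : Fin n) (hij : i ≠ j) (hik : i ≠ k) (hjk : j ≠ k) (a b : Fin n)
    (hab : a ≠ b) (t : F) :
    p3 F i j k * tv a b t * (p3 F i j k)⁻¹ = tv (c3 i j k a) (c3 i j k b) t := by
  rw [p3_eq i j k hij hik hjk]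
  exact pmHom_conj _ a b t hab

end gen

variable {m : ℕ} {F : Type*} [Field F] {P : Type*} [Group P] (G : GSys m F P)

theorem step (σ : An m) (a b : Fin 3) (hab : a ≠ b)
    (h : ∀ t, G.ι (tv a b t) = G.θ σ * G.ι (tv 0 1 t) * (G.θ σ)⁻¹) (t : F) :
    G.ι (tv (c3 0 1 2 a) (c3 0 1 2 b) t) =
      G.θ (cA m * σ) * G.ι (tv 0 1 t) * (G.θ (cA m * σ))⁻¹ := by
  rw [← p3_conj (0 : Fin 3) 1 2 (by decide) (by decide) (by decide) a b hab, map_mul, map_mul,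
    map_inv, ← G.k1, h t, map_mul]
  group

theorem cA0 (m : ℕ) : (cA m).1 0 = 1 := c3_apply_a 0 1 2 (ne01 m) (ne02 m).symm
theorem cA1 (m : ℕ) : (cA m).1 1 = 2 := c3_apply_b 0 1 2 (ne02 m).symm (ne12 m).symm
theorem cA2 (m : ℕ) : (cA m).1 2 = 0 := c3_apply_i 0 1 2

theorem tauA0 (m : ℕ) : (tauA m).1 0 = 1 := by
  show (Equiv.swap 0 1 * Equiv.swap 2 3 : Equiv.Perm (Fin (m + 4))) 0 = 1
  rw [Equiv.Perm.mul_apply, Equiv.swap_apply_of_ne_of_ne (ne02 m) (ne03 m), Equiv.swap_apply_left]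

theorem tauA1 (m : ℕ) : (tauA m).1 1 = 0 := by
  show (Equiv.swap 0 1 * Equiv.swap 2 3 : Equiv.Perm (Fin (m + 4))) 1 = 0
  rw [Equiv.Perm.mul_apply, Equiv.swap_apply_of_ne_of_ne (ne12 m) (ne13 m), Equiv.swap_apply_right]

-- piece `xcs`
theorem x_cs (a b : Fin 3) (hab : a ≠ b) (t : F) :
    G.ι (tv a b t) = G.x ((![0, 1, 2] : Fin 3 → Fin (m + 4)) a) ((![0, 1, 2] : Fin 3 → Fin (m + 4)) b) t := by
  have c0 : c3 (0 : Fin 3) 1 2 0 = 1 := by decide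
  have c1 : c3 (0 : Fin 3) 1 2 1 = 2 := by decide
  have c2 : c3 (0 : Fin 3) 1 2 2 = 0 := by decide
  have h01 : ∀ t, G.ι (tv 0 1 t) = G.θ 1 * G.ι (tv 0 1 t) * (G.θ 1)⁻¹ := by
    intro t; rw [map_one]; group
  have h12 := step G 1 0 1 (by decide) h01
  rw [c0, c1] at h12
  have h20 := step G _ 1 2 (by decide) h12
  rw [c1, c2] at h20
  have h10 : ∀ t, G.ι (tv 1 0 t) = G.θ (tauA m) * G.ι (tv 0 1 t) * (G.θ (tauA m))⁻¹ :=
    fun t => (G.k3 t).symm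
  have h21 := step G _ 1 0 (by decide) h10
  rw [c0, c1] at h21
  have h02 := step G _ 2 1 (by decide) h21
  rw [c1, c2] at h02
  fin_cases a <;> fin_cases b
  · exact absurd rfl hab
  · show G.ι (tv 0 1 t) = G.x 0 1 t
    rw [h01 t, x_wd]
    rfl
  · show G.ι (tv 0 2 t) = G.x 0 2 t
    rw [h02 t, x_wd]
    congr 1
  · show G.ι (tv 1 0 t) = G.x 1 0 t
    rw [h10 t, x_wd, tauA0, tauA1]
  · exact absurd rfl hab
  · show G.ι (tv 1 2 t) = G.x 1 2 t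
    rw [h12 t, x_wd]
    congr 1
  · show G.ι (tv 2 0 t) = G.x 2 0 t
    rw [h20 t, x_wd]
    congr 1
  · show G.ι (tv 2 1 t) = G.x 2 1 t
    rw [h21 t, x_wd]
    congr 1
  · exact absurd rfl hab

end Cfsg.Agent.Lib.Helper15BPXcs
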