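import Mathlib
import Cfsg.Agent.Lib.Helper43GlDefs
import Cfsg.Agent.Lib.Helper15BPXcs
import Cfsg.Agent.Lib.Helper72BPC3
import Cfsg.Agent.Lib.Helper30BPXwd
import Cfsg.Agent.Lib.Helper10BPExt2
import Cfsg.Agent.Lib.Helper36BPGen
import Cfsg.Agent.Lib.Helper6SL

set_option autoImplicit false

/-! PROJECT 43 wave 3, piece `ggen`. -/

namespace Cfsg.Agent.Lib.Helper15BPGgen

open Matrix Cfsg.Agent.Lib.Helper43BP Cfsg.Agent.Lib.Helper43St Cfsg.Agent.Lib.Helper43Gl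
open Cfsg.Agent.Lib.Helper15BPXcs Cfsg.Agent.Lib.Helper72BPC3 Cfsg.Agent.Lib.Helper30BPXwd

variable {m : ℕ} {F : Type*} [Field F] {P : Type*} [Group P] (G : GSys m F P)

theorem vec_inj (m : ℕ) (a b : Fin 3) (hab : a ≠ b) :
    (![0, 1, 2] : Fin 3 → Fin (m + 4)) a ≠ (![0, 1, 2] : Fin 3 → Fin (m + 4)) b := by
  have h01 := ne01 m
  have h02 := ne02 m
  have h12 := ne12 m
  fin_cases a <;> fin_cases b <;> first
    | exact absurd rfl hab
    | exact h01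
    | exact h02
    | exact h12
    | exact h01.symm
    | exact h02.symm
    | exact h12.symm

theorem range_iota_le :
    G.ι.range ≤ Subgroup.closure {g | ∃ i j t, i ≠ j ∧ g = G.x i j t} := by
  rintro _ ⟨A, rfl⟩
  refine Cfsg.Agent.Lib.Helper6SL.transvection_induction
    (fun A => G.ι A ∈ Subgroup.closure {g | ∃ i j t, i ≠ j ∧ g = G.x i j t}) ?_ ?_ A
  · intro a b hab c
    have : SpecialLinearGroup.transvection hab c = tv a b c := by
      unfold tv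
      rw [dif_pos hab]
    rw [this, x_cs G a b hab c]
    exact Subgroup.subset_closure ⟨_, _, c, vec_inj m a b hab, rfl⟩
  · intro A B hA hB
    rw [map_mul]
    exact mul_mem hA hB

theorem theta_norm (σ : An m) (y : P)
    (hy : y ∈ Subgroup.closure {g | ∃ i j t, i ≠ j ∧ g = G.x i j t}) :
    G.θ σ * y * (G.θ σ)⁻¹ ∈ Subgroup.closure {g | ∃ i j t, i ≠ j ∧ g = G.x i j t} := by
  induction hy using Subgroup.closure_induction with
  | mem y hy =>
    obtain ⟨i, j, t, hij, rfl⟩ := hy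
    rw [x_equiv G σ i j hij t Cfsg.Agent.Lib.Helper10BPExt2.ext2]
    exact Subgroup.subset_closure ⟨_, _, t, σ.1.injective.ne hij, rfl⟩
  | one => simp
  | mul y y' _ _ ih ih' =>
    have : G.θ σ * (y * y') * (G.θ σ)⁻¹ = (G.θ σ * y * (G.θ σ)⁻¹) * (G.θ σ * y' * (G.θ σ)⁻¹) := by
      group
    rw [this]
    exact mul_mem ih ih'
  | inv y _ ih =>
    have : G.θ σ * y⁻¹ * (G.θ σ)⁻¹ = (G.θ σ * y * (G.θ σ)⁻¹)⁻¹ := by group
    rw [this]
    exact inv_mem ih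

theorem theta_c3 (i : Fin (m + 4)) (hi0 : i ≠ 0) (hi1 : i ≠ 1)
    (h : c3 0 1 i ∈ alternatingGroup (Fin (m + 4))) :
    G.θ ⟨c3 0 1 i, h⟩ ∈ Subgroup.closure {g | ∃ i j t, i ≠ j ∧ g = G.x i j t} := by
  have hcA : G.θ (cA m) ∈ Subgroup.closure {g | ∃ i j t, i ≠ j ∧ g = G.x i j t} := by
    rw [G.k1]
    exact range_iota_le G ⟨_, rfl⟩
  by_cases hi2 : i = 2
  · subst hi2
    exact hcA
  · have hρ : (Equiv.swap 0 1 * Equiv.swap 2 i : Equiv.Perm (Fin (m + 4))) ∈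
        alternatingGroup (Fin (m + 4)) := by
      rw [Equiv.Perm.mem_alternatingGroup]
      simp [Equiv.Perm.sign_swap (ne01 m), Equiv.Perm.sign_swap (Ne.symm hi2)]
    have h1 := theta_norm G ⟨_, hρ⟩ _ hcA
    rw [← map_inv, ← map_mul, ← map_mul] at h1
    have e : (⟨_, hρ⟩ * cA m * (⟨_, hρ⟩ : An m)⁻¹ : An m) = (⟨c3 0 1 i, h⟩ : An m)⁻¹ := by
      apply Subtype.ext
      show (Equiv.swap 0 1 * Equiv.swap 2 i : Equiv.Perm (Fin (m + 4))) * c3 0 1 2 *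
        (Equiv.swap 0 1 * Equiv.swap 2 i : Equiv.Perm (Fin (m + 4)))⁻¹ = (c3 0 1 i)⁻¹
      rw [c3_conj, ← c3_swap 0 1 i (ne01 m) hi0 hi1]
      congr 1
      · rw [Equiv.Perm.mul_apply, Equiv.swap_apply_of_ne_of_ne (ne02 m) (Ne.symm hi0),
          Equiv.swap_apply_left]
      · rw [Equiv.Perm.mul_apply, Equiv.swap_apply_of_ne_of_ne (ne12 m) (Ne.symm hi1),
          Equiv.swap_apply_right]
      · rw [Equiv.Perm.mul_apply, Equiv.swap_apply_left, Equiv.swap_apply_of_ne_of_ne hi0 hi1]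
    rw [e, map_inv] at h1
    exact (Subgroup.inv_mem_iff _).1 h1

theorem range_theta_le :
    G.θ.range ≤ Subgroup.closure {g | ∃ i j t, i ≠ j ∧ g = G.x i j t} := by
  rintro _ ⟨⟨σ, hσ⟩, rfl⟩
  have h1 : σ ∈ altOn (Set.univ : Set (Fin (m + 4))) :=
    ⟨hσ, fun x hx => absurd (Set.mem_univ x) hx⟩
  rw [← Cfsg.Agent.Lib.Helper36BPGen.closure_c3 Set.univ 0 1 (ne01 m) (Set.mem_univ _)
    (Set.mem_univ _)] at h1
  have key : ∀ τ ∈ Subgroup.closure {g : Equiv.Perm (Fin (m + 4)) |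
      ∃ i ∈ (Set.univ : Set (Fin (m + 4))), i ≠ 0 ∧ i ≠ 1 ∧ g = c3 0 1 i},
      ∃ h : τ ∈ alternatingGroup (Fin (m + 4)),
        G.θ ⟨τ, h⟩ ∈ Subgroup.closure {g | ∃ i j t, i ≠ j ∧ g = G.x i j t} := by
    intro τ hτ
    induction hτ using Subgroup.closure_induction with
    | mem y hy =>
      obtain ⟨i, -, hi0, hi1, rfl⟩ := hy
      exact ⟨c3_mem_alt 0 1 i (ne01 m) hi1, theta_c3 G i hi0 hi1 _⟩
    | one =>
      refine ⟨one_mem _, ?_⟩
      have : (⟨1, one_mem _⟩ : An m) = 1 := rfl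
      rw [this, map_one]
      exact one_mem _
    | mul y y' _ _ ih ih' =>
      obtain ⟨h, e⟩ := ih
      obtain ⟨h', e'⟩ := ih'
      refine ⟨mul_mem h h', ?_⟩
      have : (⟨y * y', mul_mem h h'⟩ : An m) = ⟨y, h⟩ * ⟨y', h'⟩ := rfl
      rw [this, map_mul]
      exact mul_mem e e'
    | inv y _ ih =>
      obtain ⟨h, e⟩ := ih
      refine ⟨inv_mem h, ?_⟩
      have : (⟨y⁻¹, inv_mem h⟩ : An m) = ⟨y, h⟩⁻¹ := rfl
      rw [this, map_inv]
      exact inv_mem e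
  obtain ⟨h, e⟩ := key σ h1
  exact e

-- piece `ggen`
theorem g_gen : Subgroup.closure {g | ∃ i j t, i ≠ j ∧ g = G.x i j t} = ⊤ := by
  rw [eq_top_iff, ← G.gen, Subgroup.closure_le]
  rintro y (hy | hy)
  · exact range_theta_le G hy
  · exact range_iota_le G hy

end Cfsg.Agent.Lib.Helper15BPGgen
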