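import Mathlib
import Cfsg.Agent.Lib.Helper43BPDefs

set_option autoImplicit false

/-! PROJECT 43, piece `gluecross`.  The pieces `c3_mem`, `Cyc_conj`, `Cyc_mem` are extra hypotheses at the end. -/

namespace Cfsg.Agent.Lib.Helper15BPGluecross

open Cfsg.Agent.Lib.Helper43BP

section abs

variable {P : Type*} [Group P] {Ω : Type*}

theorem conj_comm {s t : P} (h : Commute s t) (w : P) :
    s * (t * w * t⁻¹) * s⁻¹ = t * (s * w * s⁻¹) * t⁻¹ := by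
  have h1 : s * t = t * s := h
  have h2 : t⁻¹ * s⁻¹ = s⁻¹ * t⁻¹ := by rw [← mul_inv_rev, ← mul_inv_rev, h1]
  calc s * (t * w * t⁻¹) * s⁻¹ = (s * t) * w * (t⁻¹ * s⁻¹) := by group
    _ = (t * s) * w * (s⁻¹ * t⁻¹) := by rw [h1, h2]
    _ = _ := by group

theorem sq_comm {a b : P} (h : (a * b) ^ 2 = 1) : (b * a) ^ 2 = 1 := by
  have : (b * a) ^ 2 = a⁻¹ * (a * b) ^ 2 * a := by
    simp only [pow_two]; group
  rw [this, h, mul_one, inv_mul_cancel]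

theorem sq_inv {a b : P} (h : (a⁻¹ * b⁻¹) ^ 2 = 1) : (a * b) ^ 2 = 1 := by
  apply sq_comm
  have : (b * a) ^ 2 = ((a⁻¹ * b⁻¹) ^ 2)⁻¹ := by
    simp only [pow_two]; group
  rw [this, h, inv_one]

theorem orbit_induction (c : Equiv.Perm Ω) (S : Set Ω) (hmaps : ∀ x ∈ S, c x ∈ S)
    (htrans : ∀ x ∈ S, ∀ y ∈ S, ∃ k : ℕ, (c ^ k) x = y) (Q : Ω → Prop) (j0 : Ω) (hj0 : j0 ∈ S)
    (h0 : Q j0) (hstep : ∀ j ∈ S, Q j → Q (c j)) : ∀ j ∈ S, Q j := by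
  have key : ∀ k : ℕ, (c ^ k) j0 ∈ S ∧ Q ((c ^ k) j0) := by
    intro k
    induction k with
    | zero => exact ⟨hj0, h0⟩
    | succ k ih =>
      rw [pow_succ', Equiv.Perm.mul_apply]
      exact ⟨hmaps _ ih.1, hstep _ ih.1 ih.2⟩
  intro j hj
  obtain ⟨k, rfl⟩ := htrans j0 hj0 j hj
  exact (key k).2

theorem prop_star (y : Ω → P) (c : Equiv.Perm Ω) (S : Set Ω) (t s : P) (ε δ : ℤˣ)
    (hconj : ∀ j ∈ S, t * y j * t⁻¹ = (y (c j)) ^ (ε : ℤ)) (hmaps : ∀ x ∈ S, c x ∈ S)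
    (htrans : ∀ x ∈ S, ∀ y ∈ S, ∃ k : ℕ, (c ^ k) x = y) (hst : Commute s t) (j0 : Ω)
    (hj0 : j0 ∈ S) (h0 : s * y j0 * s⁻¹ = (y j0) ^ (δ : ℤ)) :
    ∀ j ∈ S, s * y j * s⁻¹ = (y j) ^ (δ : ℤ) := by
  refine orbit_induction c S hmaps htrans (fun j => s * y j * s⁻¹ = (y j) ^ (δ : ℤ)) j0 hj0 h0 ?_
  intro j hj ih
  have e1 : y (c j) = t * (y j) ^ (ε : ℤ) * t⁻¹ := by
    have := congrArg (fun g : P => g ^ (ε : ℤ)) (hconj j hj)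
    beta_reduce at this
    rw [conj_zpow, ← zpow_mul, Int.units_coe_mul_self, zpow_one] at this
    exact this.symm
  calc s * y (c j) * s⁻¹ = s * (t * (y j) ^ (ε : ℤ) * t⁻¹) * s⁻¹ := by rw [e1]
    _ = t * (s * (y j) ^ (ε : ℤ) * s⁻¹) * t⁻¹ := conj_comm hst _
    _ = t * ((y j) ^ (δ : ℤ)) ^ (ε : ℤ) * t⁻¹ := by rw [← conj_zpow, ih]
    _ = (t * (y j) ^ (ε : ℤ) * t⁻¹) ^ (δ : ℤ) := by
      rw [conj_zpow, ← zpow_mul, ← zpow_mul, mul_comm]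
    _ = _ := by rw [← e1]

theorem prop_R (x : Ω → P) (c : Equiv.Perm Ω) (S : Set Ω) (s : P) (ε : ℤˣ) (w : P)
    (hconj : ∀ i ∈ S, s * x i * s⁻¹ = (x (c i)) ^ (ε : ℤ)) (hw : s * w * s⁻¹ = w ^ (ε : ℤ))
    (hmaps : ∀ x ∈ S, c x ∈ S) (htrans : ∀ x ∈ S, ∀ y ∈ S, ∃ k : ℕ, (c ^ k) x = y) (i0 : Ω)
    (hi0 : i0 ∈ S) (h0 : (x i0 * w) ^ 2 = 1) : ∀ i ∈ S, (x i * w) ^ 2 = 1 := by
  refine orbit_induction c S hmaps htrans (fun i => (x i * w) ^ 2 = 1) i0 hi0 h0 ?_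
  intro i hi ih
  have e1 : ((x (c i)) ^ (ε : ℤ) * w ^ (ε : ℤ)) ^ 2 = 1 := by
    rw [← hconj i hi, ← hw]
    have : s * x i * s⁻¹ * (s * w * s⁻¹) = s * (x i * w) * s⁻¹ := by group
    rw [this, conj_pow, ih, mul_one, mul_inv_cancel]
  rcases Int.units_eq_one_or ε with h | h
  · rw [h] at e1
    simpa using e1
  · rw [h] at e1
    apply sq_inv
    simpa using e1

end abs

variable {Ω : Type*} [Fintype Ω] [DecidableEq Ω]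
variable {P : Type*} [Group P]

theorem ext1_conj (A : Set Ω) (a b : Ω) (hab : a ≠ b) (ha : a ∈ A) (hb : b ∈ A)
    (θA : ↥(altOn A) →* P) (S : Set Ω) (hS : S ⊆ A) (haS : a ∉ S) (hbS : b ∉ S)
    (cA : Equiv.Perm Ω) (εA : ℤˣ) (hcA : Cyc a b S cA εA)
    (c3_mem : ∀ (i : Ω), i ∈ A → i ≠ b → c3 a b i ∈ altOn A)
    (Cyc_conj : ∀ (i : Ω), i ≠ a → i ≠ b → cA * c3 a b i * cA⁻¹ = (c3 a b (cA i)) ^ (εA : ℤ))
    (Cyc_mem : cA ∈ altOn A) :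
    ∀ i ∈ S, ext1 θA cA * ext1 θA (c3 a b i) * (ext1 θA cA)⁻¹ =
      (ext1 θA (c3 a b (cA i))) ^ (εA : ℤ) := by
  intro i hi
  have hia : i ≠ a := fun h => haS (h ▸ hi)
  have hib : i ≠ b := fun h => hbS (h ▸ hi)
  have hci := hcA.maps i hi
  have hcib : cA i ≠ b := fun h => hbS (h ▸ hci)
  rw [ext1_apply θA Cyc_mem, ext1_apply θA (c3_mem i (hS hi) hib),
    ext1_apply θA (c3_mem (cA i) (hS hci) hcib), ← map_inv, ← map_mul, ← map_mul, ← map_zpow]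
  congr 1
  apply Subtype.ext
  simpa using Cyc_conj i hia hib

-- piece `gluecross`
theorem glue_cross (A B : Set Ω) (a b : Ω) (hab : a ≠ b) (ha : a ∈ A ∩ B) (hb : b ∈ A ∩ B)
    (θA : ↥(altOn A) →* P) (θB : ↥(altOn B) →* P)
    (cA : Equiv.Perm Ω) (εA : ℤˣ) (hcA : Cyc a b (A \ B) cA εA)
    (cB : Equiv.Perm Ω) (εB : ℤˣ) (hcB : Cyc a b (B \ A) cB εB)
    (i0 j0 : Ω) (hi0 : i0 ∈ A \ B) (hj0 : j0 ∈ B \ A)
    (E3 : Commute (ext1 θA cA) (ext1 θB cB))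
    (E4 : ext1 θA cA * ext1 θB (c3 a b j0) * (ext1 θA cA)⁻¹ = (ext1 θB (c3 a b j0)) ^ (εA : ℤ))
    (E5 : ext1 θB cB * ext1 θA (c3 a b i0) * (ext1 θB cB)⁻¹ = (ext1 θA (c3 a b i0)) ^ (εB : ℤ))
    (E6 : (ext1 θA (c3 a b i0) * ext1 θB (c3 a b j0)) ^ 2 = 1)
    (c3_mem : ∀ (A : Set Ω) (a b i : Ω) (_ : a ∈ A) (_ : b ∈ A) (_ : i ∈ A) (_ : a ≠ b)
      (_ : i ≠ b), c3 a b i ∈ altOn A)
    (Cyc_conj : ∀ {a b : Ω} {S : Set Ω} {c : Equiv.Perm Ω} {ε : ℤˣ} (_ : Cyc a b S c ε)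
      (_ : a ≠ b) (i : Ω) (_ : i ≠ a) (_ : i ≠ b), c * c3 a b i * c⁻¹ = (c3 a b (c i)) ^ (ε : ℤ))
    (Cyc_mem : ∀ {a b : Ω} {S : Set Ω} {c : Equiv.Perm Ω} {ε : ℤˣ} (_ : Cyc a b S c ε)
      (A : Set Ω) (_ : S ⊆ A) (_ : a ∈ A) (_ : b ∈ A), c ∈ altOn A) :
    ∀ i ∈ A \ B, ∀ j ∈ B \ A, (ext1 θA (c3 a b i) * ext1 θB (c3 a b j)) ^ 2 = 1 := by
  have hA := ext1_conj A a b hab ha.1 hb.1 θA (A \ B) Set.sdiff_subset (fun h => h.2 ha.2)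
    (fun h => h.2 hb.2) cA εA hcA (fun i hi hib => c3_mem A a b i ha.1 hb.1 hi hab hib)
    (fun i hia hib => Cyc_conj hcA hab i hia hib) (Cyc_mem hcA A Set.sdiff_subset ha.1 hb.1)
  have hB := ext1_conj B a b hab ha.2 hb.2 θB (B \ A) Set.sdiff_subset (fun h => h.2 ha.1)
    (fun h => h.2 hb.1) cB εB hcB (fun i hi hib => c3_mem B a b i ha.2 hb.2 hi hab hib)
    (fun i hia hib => Cyc_conj hcB hab i hia hib) (Cyc_mem hcB B Set.sdiff_subset ha.2 hb.2)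
  have hstar := prop_star (fun i => ext1 θA (c3 a b i)) cA (A \ B) (ext1 θA cA) (ext1 θB cB) εA εB
    hA hcA.maps hcA.trans E3.symm i0 hi0 E5
  have h1 := prop_R (fun i => ext1 θA (c3 a b i)) cA (A \ B) (ext1 θA cA) εA
    (ext1 θB (c3 a b j0)) hA E4 hcA.maps hcA.trans i0 hi0 E6
  intro i hi j hj
  apply sq_comm
  exact prop_R (fun j => ext1 θB (c3 a b j)) cB (B \ A) (ext1 θB cB) εB
    (ext1 θA (c3 a b i)) hB (hstar i hi) hcB.maps hcB.trans j0 hj0 (sq_comm (h1 i hi)) j hj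

end Cfsg.Agent.Lib.Helper15BPGluecross
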