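import Cfsg.Agent.Lib.Helper43PresB

set_option autoImplicit false

namespace Cfsg.Agent.Lib.Helper43Pres

open Polynomial

section Field

variable {F : Type*} [Field F] [Fintype F]

theorem exists_zeta : ∃ ζ : F, ζ ≠ 0 ∧ (∀ b : F, b ≠ 0 → ∃ j : ℕ, ζ ^ j = b) ∧
    orderOf ζ = Fintype.card F - 1 := by
  classical
  obtain ⟨g, hg⟩ := IsCyclic.exists_generator (α := Fˣ)
  refine ⟨g, g.ne_zero, ?_, ?_⟩
  · intro b hb
    have := hg (Units.mk0 b hb)
    rw [← mem_powers_iff_mem_zpowers] at this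
    obtain ⟨j, hj⟩ := this
    refine ⟨j, ?_⟩
    have := congrArg Units.val hj
    simpa using this
  · rw [orderOf_units, orderOf_eq_card_of_forall_mem_zpowers hg, Nat.card_eq_fintype_card,
      Fintype.card_units]

theorem adjoin_eq_top (p : ℕ) [Fact p.Prime] [Algebra (ZMod p) F] (x : F)
    (H : ∀ (σ : F →+* F) (r d : ℕ), 2 ≤ r → 2 ≤ d → Fintype.card F = r ^ d →
      (∀ y, σ y = y ^ r) → σ x ≠ x) :
    Algebra.adjoin (ZMod p) {x} = ⊤ := by
  classical
  have halg : IsAlgebraic (ZMod p) x := Algebra.IsAlgebraic.isAlgebraic x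
  rw [← IntermediateField.adjoin_simple_toSubalgebra_of_isAlgebraic halg]
  set K := IntermediateField.adjoin (ZMod p) {x} with hK
  haveI : Fintype K := Fintype.ofFinite K
  have hcard : Fintype.card F = Fintype.card K ^ Module.finrank K F := Module.card_eq_pow_finrank
  have hr2 : 2 ≤ Fintype.card K := Fintype.one_lt_card
  have hxK : x ∈ K := IntermediateField.mem_adjoin_simple_self _ x
  have hd0 : 0 < Module.finrank K F := Module.finrank_pos
  by_cases hd : 2 ≤ Module.finrank K F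
  · exfalso
    refine H (FiniteField.frobeniusAlgHom K F).toRingHom (Fintype.card K) _ hr2 hd hcard ?_ ?_
    · intro y; simp [FiniteField.coe_frobeniusAlgHom]
    · have h1 := FiniteField.pow_card (⟨x, hxK⟩ : K)
      have h2 := congrArg Subtype.val h1
      simp only [SubmonoidClass.coe_pow] at h2
      simpa [FiniteField.coe_frobeniusAlgHom] using h2
  · have hd1 : Module.finrank K F = 1 := by omega
    rw [hd1, pow_one] at hcard
    have hbij : Function.Bijective (Subtype.val : K → F) :=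
      Function.Injective.bijective_of_nat_card_le Subtype.val_injective
        (by rw [Nat.card_eq_fintype_card, Nat.card_eq_fintype_card, hcard])
    rw [eq_top_iff]
    intro y _
    obtain ⟨⟨y', hy'⟩, rfl⟩ := hbij.2 y
    exact hy'

theorem adjoin_zeta_sq (p : ℕ) [Fact p.Prime] [Algebra (ZMod p) F] {ζ : F} (hζ : ζ ≠ 0)
    (hord : orderOf ζ = Fintype.card F - 1) : Algebra.adjoin (ZMod p) {ζ ^ 2} = ⊤ := by
  apply adjoin_eq_top
  intro σ r d hr hd hq hσ hx
  rw [hσ, ← pow_mul] at hx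
  have h1 : ζ ^ (2 * r - 2) = 1 := by
    have : ζ ^ (2 * r - 2) * ζ ^ 2 = 1 * ζ ^ 2 := by
      rw [← pow_add, one_mul, Nat.sub_add_cancel (by omega), hx]
    exact mul_right_cancel₀ (pow_ne_zero _ hζ) this
  have h2 := orderOf_dvd_of_pow_eq_one h1
  have h3 := Nat.le_of_dvd (by omega) h2
  have h4 : r ^ 2 ≤ Fintype.card F := by
    rw [hq]; exact Nat.pow_le_pow_right (by omega) hd
  rw [hord] at h3
  have h5 : 2 * r ≤ r ^ 2 := by nlinarith
  omega

theorem exists_evL (p : ℕ) [Fact p.Prime] [Algebra (ZMod p) F] {a : F}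
    (ha : Algebra.adjoin (ZMod p) {a} = ⊤) (x : F) : ∃ L, evL a L = x := by
  have : x ∈ Algebra.adjoin (ZMod p) {a} := by rw [ha]; trivial
  rw [Algebra.adjoin_singleton_eq_range_aeval] at this
  obtain ⟨f, hf⟩ := this
  obtain ⟨L, rfl⟩ := exists_pL p f
  exact ⟨L, by rw [← aeval_pL p]; exact hf⟩

/-- the generic odd case: two consecutive squares generating the field. -/
theorem exists_kl (p : ℕ) [Fact p.Prime] [Algebra (ZMod p) F] {ζ : F} (hζ : ζ ≠ 0)
    (hgen : ∀ b : F, b ≠ 0 → ∃ j : ℕ, ζ ^ j = b)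
    (hord : orderOf ζ = Fintype.card F - 1) (hodd : Odd (Fintype.card F))
    (h7 : 7 ≤ Fintype.card F) (h9 : Fintype.card F ≠ 9) :
    ∃ k l : ℕ, ζ ^ (2 * k) = 1 + ζ ^ (2 * l) ∧ Algebra.adjoin (ZMod p) {ζ ^ (2 * l)} = ⊤ := by
  have h2 : (2 : F) ≠ 0 := by
    intro h
    have hc : ringChar F = 2 := by
      have : ringChar F ∣ 2 := by
        rw [← ringChar.spec]; exact_mod_cast h
      rcases (Nat.dvd_prime Nat.prime_two).mp this with h1 | h1
      · exact absurd h1 (CharP.ringChar_ne_one)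
      · exact h1
    have := FiniteField.even_card_of_char_two hc
    rcases hodd with ⟨m, hm⟩
    omega
  have hz2 : ζ ^ 2 - 1 ≠ 0 := by
    intro h
    have h1 : ζ ^ 2 = 1 := sub_eq_zero.mp h
    have := Nat.le_of_dvd (by omega) (orderOf_dvd_of_pow_eq_one h1)
    omega
  have hz4 : ζ ^ 2 + 1 ≠ 0 := by
    intro h
    have h1 : ζ ^ 4 = 1 := by
      have : ζ ^ 2 = -1 := eq_neg_of_add_eq_zero_left h
      calc ζ ^ 4 = (ζ ^ 2) ^ 2 := by ring
        _ = 1 := by rw [this]; ring
    have := Nat.le_of_dvd (by omega) (orderOf_dvd_of_pow_eq_one h1)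
    omega
  obtain ⟨l, hl⟩ := hgen ((ζ ^ 2 - 1) / (2 * ζ)) (div_ne_zero hz2 (mul_ne_zero h2 hζ))
  obtain ⟨k, hk⟩ := hgen ((ζ ^ 2 + 1) / (2 * ζ)) (div_ne_zero hz4 (mul_ne_zero h2 hζ))
  refine ⟨k, l, ?_, ?_⟩
  · rw [mul_comm 2 k, mul_comm 2 l, pow_mul, pow_mul, hk, hl]
    field_simp
    ring
  · have hw : Algebra.adjoin (ZMod p) {ζ ^ 2 + (ζ ^ 2)⁻¹} = ⊤ := by
      apply adjoin_eq_top
      intro σ r d hr hd hq hσ hx
      rw [map_add, map_inv₀, hσ, ← pow_mul] at hx
      have hzr : ζ ^ (2 * r) ≠ 0 := pow_ne_zero _ hζ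
      have hz2' : ζ ^ 2 ≠ 0 := pow_ne_zero _ hζ
      have h1 : (ζ ^ (2 * r) - ζ ^ 2) * (ζ ^ (2 * r) * ζ ^ 2 - 1) = 0 := by
        field_simp at hx
        linear_combination hx
      have h4 : r ^ 2 ≤ Fintype.card F := by
        rw [hq]; exact Nat.pow_le_pow_right (by omega) hd
      have h5 : Fintype.card F - 1 ∣ 2 * r - 2 ∨ Fintype.card F - 1 ∣ 2 * r + 2 := by
        rcases mul_eq_zero.mp h1 with h | h
        · left
          have hx' : ζ ^ (2 * r) = ζ ^ 2 := sub_eq_zero.mp h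
          have h1 : ζ ^ (2 * r - 2) = 1 := by
            have : ζ ^ (2 * r - 2) * ζ ^ 2 = 1 * ζ ^ 2 := by
              rw [← pow_add, one_mul, Nat.sub_add_cancel (by omega), hx']
            exact mul_right_cancel₀ (pow_ne_zero _ hζ) this
          rw [← hord]; exact orderOf_dvd_of_pow_eq_one h1
        · right
          have h1 : ζ ^ (2 * r + 2) = 1 := by rw [pow_add]; exact sub_eq_zero.mp h
          rw [← hord]; exact orderOf_dvd_of_pow_eq_one h1
      have h6 : Fintype.card F - 1 ≤ 2 * r + 2 := by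
        rcases h5 with h | h
        · have := Nat.le_of_dvd (by omega) h; omega
        · exact Nat.le_of_dvd (by omega) h
      have hr3 : r ≤ 3 := by
        by_contra hcon
        have h7' : 4 * r ≤ r ^ 2 := by nlinarith
        omega
      have hr' : r = 2 ∨ r = 3 := by omega
      rcases hr' with rfl | rfl
      · rw [hq] at hodd
        have : Even (2 ^ d) := (Nat.even_pow.mpr ⟨even_two, by omega⟩)
        exact (Nat.not_even_iff_odd.mpr hodd) this
      · have : Fintype.card F ≤ 9 := by omega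
        have h9' : 3 ^ 2 ≤ Fintype.card F := h4
        omega
    rw [eq_top_iff, ← hw]
    apply Algebra.adjoin_le
    intro y hy
    rw [Set.mem_singleton_iff] at hy
    subst hy
    have e : ζ ^ 2 + (ζ ^ 2)⁻¹ = 4 * ζ ^ (2 * l) + 2 := by
      rw [mul_comm 2 l, pow_mul, hl]
      field_simp
      ring
    rw [e]
    have hmem : ζ ^ (2 * l) ∈ Algebra.adjoin (ZMod p) {ζ ^ (2 * l)} :=
      Algebra.subset_adjoin (Set.mem_singleton _)
    have h4m : (4 : F) ∈ Algebra.adjoin (ZMod p) {ζ ^ (2 * l)} := by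
      have := natCast_mem (Algebra.adjoin (ZMod p) {ζ ^ (2 * l)}) 4
      simpa using this
    have h2m : (2 : F) ∈ Algebra.adjoin (ZMod p) {ζ ^ (2 * l)} := by
      have := natCast_mem (Algebra.adjoin (ZMod p) {ζ ^ (2 * l)}) 2
      simpa using this
    exact add_mem (mul_mem h4m hmem) h2m

/-- even case: every nonzero element is an even power of `ζ`. -/
theorem exists_even_pow {ζ : F} (hgen : ∀ b : F, b ≠ 0 → ∃ j : ℕ, ζ ^ j = b)
    (hord : orderOf ζ = Fintype.card F - 1) (heven : Even (Fintype.card F)) (b : F) (hb : b ≠ 0) :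
    ∃ i : ℕ, ζ ^ (2 * i) = b := by
  obtain ⟨j, rfl⟩ := hgen b hb
  have hq : 2 ≤ Fintype.card F := Fintype.one_lt_card
  have h1 : ζ ^ (Fintype.card F - 1) = 1 := by rw [← hord]; exact pow_orderOf_eq_one ζ
  rcases Nat.even_or_odd' j with ⟨i, rfl | rfl⟩
  · exact ⟨i, rfl⟩
  · obtain ⟨m, hm⟩ := heven
    refine ⟨i + m, ?_⟩
    have : 2 * (i + m) = (2 * i + 1) + (Fintype.card F - 1) := by omega
    rw [this, pow_add, h1, mul_one]

end Field

end Cfsg.Agent.Lib.Helper43Pres
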