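import Mathlib
import Cfsg.Agent.Lib.Helper43GlDefs
import Cfsg.Agent.Lib.Helper43PresF
import Cfsg.Agent.Lib.Helper15BPPm

set_option autoImplicit false

/-! PROJECT 43 wave 3, piece `l2`. -/

namespace Cfsg.Agent.Lib.Helper15BPL2

open Matrix Cfsg.Agent.Lib.Helper43BP Cfsg.Agent.Lib.Helper43St Cfsg.Agent.Lib.Helper43Gl
open Cfsg.Agent.Lib.Helper15BPPm

section gen

variable {n : ℕ} {F : Type*} [Field F]

theorem tv_add (i j : Fin n) (hij : i ≠ j) (s t : F) :
    (tv i j (s + t) : SpecialLinearGroup (Fin n) F) = tv i j s * tv i j t := by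
  apply ext_e
  intro k
  rw [mul_e, tv_e i j hij, tv_e i j hij, Matrix.mulVec_add, Matrix.mulVec_smul, tv_e i j hij,
    tv_e_ne i j hij s i hij.symm]
  by_cases h : j = k
  · simp only [if_pos h]
    module
  · simp only [if_neg h]
    module

theorem hv_conj (i j : Fin n) (hij : i ≠ j) (a : F) (ha : a ≠ 0) (t : F) :
    (hv i j a : SpecialLinearGroup (Fin n) F) * tv i j t * (hv i j a)⁻¹ = tv i j (a ^ 2 * t) := by
  rw [mul_inv_eq_iff_eq_mul]
  apply ext_e
  intro k
  rw [mul_e, mul_e]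
  by_cases hjk : j = k
  · subst hjk
    rw [tv_e_eq i j hij, Matrix.mulVec_add, Matrix.mulVec_smul, hv_e_right i j hij a ha,
      hv_e_left i j hij a ha, Matrix.mulVec_smul, tv_e_eq i j hij, smul_add, smul_smul, smul_smul]
    congr 2
    field_simp
  · rw [tv_e_ne i j hij t k hjk]
    by_cases hik : i = k
    · subst hik
      rw [hv_e_left i j hij a ha, Matrix.mulVec_smul, tv_e_ne i j hij _ i hjk]
    · rw [hv_e_other i j hij a k hik hjk, tv_e_ne i j hij _ k hjk]

theorem wv_conj (i j : Fin n) (hij : i ≠ j) (t : F) :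
    (wv i j 1 : SpecialLinearGroup (Fin n) F) * tv i j (-t) * (wv i j 1)⁻¹ = tv j i t := by
  rw [mul_inv_eq_iff_eq_mul]
  apply ext_e
  intro k
  rw [mul_e, mul_e]
  by_cases hjk : j = k
  · subst hjk
    rw [tv_e_eq i j hij, Matrix.mulVec_add, Matrix.mulVec_smul,
      wv_e_right i j hij 1 one_ne_zero, wv_e_left i j hij 1 one_ne_zero, Matrix.mulVec_smul,
      tv_e_eq j i hij.symm, smul_smul]
    simp
  · rw [tv_e_ne i j hij _ k hjk]
    by_cases hik : i = k
    · subst hik
      rw [wv_e_left i j hij 1 one_ne_zero, Matrix.mulVec_smul, tv_e_ne j i hij.symm _ j hij]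
    · rw [wv_e_other i j hij 1 k hik hjk, tv_e_ne j i hij.symm _ k hik]

end gen

-- piece `l2`
theorem exists_zeta (F : Type*) [Field F] [Finite F] :
    ∃ ζ : F, ζ ≠ 0 ∧ ∀ t, tv 0 1 t ∈ Subgroup.closure (gs F ζ) ∧
      tv 1 0 t ∈ Subgroup.closure (gs F ζ) := by
  classical
  have := Fintype.ofFinite F
  obtain ⟨p, hp⟩ := CharP.exists F
  have hpp : Fact p.Prime := ⟨CharP.char_is_prime F p⟩
  letI : Algebra (ZMod p) F := ZMod.algebra F p
  obtain ⟨ζ, hζ0, -, hord⟩ := Cfsg.Agent.Lib.Helper43Pres.exists_zeta (F := F)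
  have hadj := Cfsg.Agent.Lib.Helper43Pres.adjoin_zeta_sq p hζ0 hord
  have h01 : (0 : Fin 3) ≠ 1 := by decide
  refine ⟨ζ, hζ0, ?_⟩
  have hu : (tv 0 1 1 : SpecialLinearGroup (Fin 3) F) ∈ Subgroup.closure (gs F ζ) :=
    Subgroup.subset_closure (by simp [gs])
  have hh : (hv 0 1 ζ : SpecialLinearGroup (Fin 3) F) ∈ Subgroup.closure (gs F ζ) :=
    Subgroup.subset_closure (by simp [gs])
  have hw : (wv 0 1 1 : SpecialLinearGroup (Fin 3) F) ∈ Subgroup.closure (gs F ζ) :=
    Subgroup.subset_closure (by simp [gs])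
  have hadd : ∀ s t : F, (tv 0 1 s : SpecialLinearGroup (Fin 3) F) ∈ Subgroup.closure (gs F ζ) →
      (tv 0 1 t : SpecialLinearGroup (Fin 3) F) ∈ Subgroup.closure (gs F ζ) →
      (tv 0 1 (s + t) : SpecialLinearGroup (Fin 3) F) ∈ Subgroup.closure (gs F ζ) := by
    intro s t hs ht
    rw [tv_add 0 1 h01]
    exact mul_mem hs ht
  have hzero : (tv 0 1 0 : SpecialLinearGroup (Fin 3) F) ∈ Subgroup.closure (gs F ζ) := by
    have : (tv 0 1 0 : SpecialLinearGroup (Fin 3) F) = 1 := by
      have := tv_add (F := F) (0 : Fin 3) 1 h01 0 0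
      rw [add_zero] at this
      exact (mul_eq_left.1 this.symm)
    rw [this]
    exact one_mem _
  have hnat : ∀ (k : ℕ) (t : F),
      (tv 0 1 t : SpecialLinearGroup (Fin 3) F) ∈ Subgroup.closure (gs F ζ) →
      (tv 0 1 ((k : F) * t) : SpecialLinearGroup (Fin 3) F) ∈ Subgroup.closure (gs F ζ) := by
    intro k t ht
    induction k with
    | zero => simpa using hzero
    | succ k ih =>
      have : ((k + 1 : ℕ) : F) * t = (k : F) * t + t := by push_cast; ring
      rw [this]
      exact hadd _ _ ih ht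
  have key : ∀ x : F, ∀ t : F,
      (tv 0 1 t : SpecialLinearGroup (Fin 3) F) ∈ Subgroup.closure (gs F ζ) →
      (tv 0 1 (x * t) : SpecialLinearGroup (Fin 3) F) ∈ Subgroup.closure (gs F ζ) := by
    intro x
    have hx : x ∈ Algebra.adjoin (ZMod p) {ζ ^ 2} := by rw [hadj]; trivial
    induction hx using Algebra.adjoin_induction with
    | mem y hy =>
      intro t ht
      rw [Set.mem_singleton_iff] at hy
      rw [hy, ← hv_conj 0 1 h01 ζ hζ0]
      exact mul_mem (mul_mem hh ht) (inv_mem hh)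
    | algebraMap r =>
      intro t ht
      have : algebraMap (ZMod p) F r = ((r.val : ℕ) : F) := by
        conv_lhs => rw [← ZMod.natCast_zmod_val r]
        rw [map_natCast]
      rw [this]
      exact hnat _ t ht
    | add y z _ _ ihy ihz =>
      intro t ht
      rw [add_mul]
      exact hadd _ _ (ihy t ht) (ihz t ht)
    | mul y z _ _ ihy ihz =>
      intro t ht
      rw [mul_assoc]
      exact ihy _ (ihz t ht)
  have hall : ∀ t : F, (tv 0 1 t : SpecialLinearGroup (Fin 3) F) ∈ Subgroup.closure (gs F ζ) := by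
    intro t
    have := key t 1 hu
    rwa [mul_one] at this
  intro t
  refine ⟨hall t, ?_⟩
  rw [← wv_conj 0 1 h01]
  exact mul_mem (mul_mem hw (hall _)) (inv_mem hw)

end Cfsg.Agent.Lib.Helper15BPL2
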