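import Mathlib
import Cfsg.Agent.Lib.Helper43StDefs

set_option autoImplicit false

/-! PROJECT 43 wave 2, piece `ncoxrel`.  `nh_normal` (instance argument), the conclusion of `n_coxq` and `ut_H` are
extra hypotheses. -/

namespace Cfsg.Agent.Lib.Helper15BPNcoxrel

open Matrix Cfsg.Agent.Lib.Helper43St

variable {n : ℕ} {F : Type*} [Field F] {P : Type*} [Group P] (S : StSys n F P)

theorem w_val (i j : Fin n) (hij : i ≠ j) :
    ((tv i j 1 * tv j i (-1⁻¹) * tv i j 1 : SpecialLinearGroup (Fin n) F) :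
      Matrix (Fin n) (Fin n) F) =
      1 - Matrix.single i i 1 - Matrix.single j j 1 + Matrix.single i j 1 - Matrix.single j i 1 := by
  have e0 : ((tv i j 1 * tv j i (-1⁻¹) * tv i j 1 : SpecialLinearGroup (Fin n) F) :
      Matrix (Fin n) (Fin n) F) =
      ((tv i j 1 : SpecialLinearGroup (Fin n) F) : Matrix (Fin n) (Fin n) F) *
      ((tv j i (-1⁻¹) : SpecialLinearGroup (Fin n) F) : Matrix (Fin n) (Fin n) F) *
      ((tv i j 1 : SpecialLinearGroup (Fin n) F) : Matrix (Fin n) (Fin n) F) := rfl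
  rw [e0, tv_val _ _ hij, tv_val _ _ hij.symm]
  simp only [add_mul, mul_add, one_mul, mul_one, Matrix.single_mul_single_same,
    Matrix.single_mul_single_of_ne _ _ _ _ hij, Matrix.single_mul_single_of_ne _ _ _ _ hij.symm,
    inv_one, mul_neg, add_zero]
  have hs : ∀ a b : Fin n, Matrix.single a b (-1 : F) = - Matrix.single a b 1 := by
    intro a b
    ext x y
    by_cases h : a = x ∧ b = y <;> simp [Matrix.single_apply, h]
  simp only [hs]
  abel

theorem w_type (i j : Fin n) (hij : i ≠ j) (a b : Fin n)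
    (h : ((tv i j 1 * tv j i (-1⁻¹) * tv i j 1 : SpecialLinearGroup (Fin n) F) :
      Matrix (Fin n) (Fin n) F) a b ≠ 0) : a = Equiv.swap i j b := by
  rw [w_val i j hij] at h
  by_contra hne
  apply h
  rcases eq_or_ne b i with rfl | hbi
  · rw [Equiv.swap_apply_left] at hne
    by_cases hab : a = b
    · subst hab
      simp [Matrix.single_apply, hij, hij.symm]
    · simp [Matrix.single_apply, Matrix.one_apply, hij, hij.symm, hab, Ne.symm hab, hne, Ne.symm hne]
  · rcases eq_or_ne b j with rfl | hbj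
    · rw [Equiv.swap_apply_right] at hne
      by_cases hab : a = b
      · subst hab
        simp [Matrix.single_apply, hij, hij.symm]
      · simp [Matrix.single_apply, Matrix.one_apply, hij, hij.symm, hab, Ne.symm hab, hne, Ne.symm hne]
    · rw [Equiv.swap_apply_of_ne_of_ne hbi hbj] at hne
      simp [Matrix.single_apply, Matrix.one_apply, hne, hbi, hbj, Ne.symm hbi, Ne.symm hbj]

theorem pi_w (i j : Fin n) (hij : i ≠ j) :
    S.π (S.w i j 1) = tv i j 1 * tv j i (-1⁻¹) * tv i j 1 := by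
  unfold StSys.w
  rw [map_mul, map_mul, S.hπ _ _ _ hij, S.hπ _ _ _ hij.symm]

-- piece `ncoxrel`
theorem n_coxrel (hn : 3 ≤ n) [hN : (S.H.subgroupOf S.NH).Normal]
    (n_coxq : ∃ φ : Equiv.Perm (Fin n) →* (↥S.NH ⧸ S.H.subgroupOf S.NH),
      ∀ (i j : Fin n) (_ : j.val = i.val + 1) (hw : S.w i j 1 ∈ S.NH),
        φ (Equiv.swap i j) = QuotientGroup.mk ⟨S.w i j 1, hw⟩)
    (ut_H : ∀ (η : P) (_ : η ∈ S.H), ∀ i j, i ≠ j → (S.π η).1 i j = 0) :
    ∃ rel : Equiv.Perm (Fin n) → P → Prop, (∀ ν, rel 1 ν → ν ∈ S.H) ∧ (∀ ν ∈ S.N, ∃ σ, rel σ ν) ∧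
      (∀ σ ν, rel σ ν → ∀ i j, (S.π ν).1 i j ≠ 0 → i = σ j) := by
  obtain ⟨φ, hφ⟩ := n_coxq
  have hNle : S.N ≤ S.NH := le_sup_right
  have h1 : ∀ ν, (∃ h : ν ∈ S.NH, (QuotientGroup.mk ⟨ν, h⟩ : ↥S.NH ⧸ S.H.subgroupOf S.NH) = φ 1) →
      ν ∈ S.H := by
    rintro ν ⟨h, e⟩
    rw [map_one, QuotientGroup.eq_one_iff, Subgroup.mem_subgroupOf] at e
    exact e
  refine ⟨fun σ ν => ∃ h : ν ∈ S.NH,
    (QuotientGroup.mk ⟨ν, h⟩ : ↥S.NH ⧸ S.H.subgroupOf S.NH) = φ σ, h1, ?_, ?_⟩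
  · intro ν hν
    induction hν using Subgroup.closure_induction with
    | mem y hy =>
      obtain ⟨i, j, hij, rfl⟩ := hy
      have hw : S.w i j 1 ∈ S.NH := hNle (Subgroup.subset_closure ⟨i, j, hij, rfl⟩)
      exact ⟨Equiv.swap i j, hw, (hφ i j hij hw).symm⟩
    | one => exact ⟨1, one_mem _, by rw [map_one]; rfl⟩
    | mul y y' _ _ ih ih' =>
      obtain ⟨σ, h, e⟩ := ih
      obtain ⟨σ', h', e'⟩ := ih'
      refine ⟨σ * σ', mul_mem h h', ?_⟩
      rw [map_mul, ← e, ← e']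
      rfl
    | inv y _ ih =>
      obtain ⟨σ, h, e⟩ := ih
      refine ⟨σ⁻¹, inv_mem h, ?_⟩
      rw [map_inv, ← e]
      rfl
  · obtain ⟨m, rfl⟩ : ∃ m, n = m + 1 := ⟨n - 1, by omega⟩
    intro σ
    have hσ : σ ∈ Submonoid.closure (Set.range fun i : Fin m => Equiv.swap i.castSucc i.succ) := by
      rw [Equiv.Perm.mclosure_swap_castSucc_succ]; trivial
    induction hσ using Submonoid.closure_induction_right with
    | one =>
      intro ν hν i j hij
      by_contra hne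
      exact hij (ut_H ν (h1 ν hν) i j hne)
    | mul_right σ' _ s hs ih =>
      obtain ⟨k, rfl⟩ := hs
      rintro ν ⟨h, e⟩ i j hij
      have hkk : k.castSucc ≠ k.succ := fun h => by
        have := congrArg Fin.val h
        simp at this
      have hw : S.w k.castSucc k.succ 1 ∈ S.NH :=
        hNle (Subgroup.subset_closure ⟨k.castSucc, k.succ, by simp, rfl⟩)
      have hν' : ν * (S.w k.castSucc k.succ 1)⁻¹ ∈ S.NH := mul_mem h (inv_mem hw)
      have e' : (QuotientGroup.mk ⟨ν * (S.w k.castSucc k.succ 1)⁻¹, hν'⟩ :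
          ↥S.NH ⧸ S.H.subgroupOf S.NH) = φ σ' := by
        have e2 : (⟨ν * (S.w k.castSucc k.succ 1)⁻¹, hν'⟩ : ↥S.NH) =
            ⟨ν, h⟩ * (⟨S.w k.castSucc k.succ 1, hw⟩ : ↥S.NH)⁻¹ := rfl
        rw [e2, QuotientGroup.mk_mul, QuotientGroup.mk_inv, e, map_mul,
          hφ k.castSucc k.succ (by simp) hw, mul_inv_cancel_right]
      have ih' := ih _ ⟨hν', e'⟩
      have e3 : S.π ν = S.π (ν * (S.w k.castSucc k.succ 1)⁻¹) * S.π (S.w k.castSucc k.succ 1) := by
        rw [← map_mul, inv_mul_cancel_right]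
      have e4 : (S.π (ν * (S.w k.castSucc k.succ 1)⁻¹) * S.π (S.w k.castSucc k.succ 1)).1 =
          (S.π (ν * (S.w k.castSucc k.succ 1)⁻¹)).1 * (S.π (S.w k.castSucc k.succ 1)).1 := rfl
      rw [e3, e4, Matrix.mul_apply] at hij
      obtain ⟨l, -, hl⟩ := Finset.exists_ne_zero_of_sum_ne_zero hij
      have hl1 := left_ne_zero_of_mul hl
      have hl2 := right_ne_zero_of_mul hl
      rw [pi_w S _ _ hkk] at hl2
      rw [Equiv.Perm.mul_apply, ← w_type _ _ hkk l j hl2]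
      exact ih' i l hl1

end Cfsg.Agent.Lib.Helper15BPNcoxrel
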