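import Cfsg.Agent.Lib.Helper43StDefs

set_option autoImplicit false

namespace Cfsg.Agent.Lib.Helper30BPRelbasic

open Matrix Cfsg.Agent.Lib.Helper43St Cfsg.Agent.Lib.Helper43P3

variable {n : ℕ} {F : Type*} [Field F] {P : Type*} [Group P] (S : StSys n F P)

theorem tri3 (i j k : Fin n) (hij : i ≠ j) (hik : i ≠ k) (hjk : j ≠ k) :
    ∃ f : SpecialLinearGroup (Fin 3) F →* P,
      (∀ t, f (tv 0 1 t) = S.x i j t) ∧ (∀ t, f (tv 1 0 t) = S.x j i t) ∧
      (∀ t, f (tv 0 2 t) = S.x i k t) ∧ (∀ t, f (tv 2 0 t) = S.x k i t) ∧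
      (∀ t, f (tv 1 2 t) = S.x j k t) ∧ (∀ t, f (tv 2 1 t) = S.x k j t) := by
  have hinj : Function.Injective (![i, j, k] : Fin 3 → Fin n) := by
    intro a b hab
    fin_cases a <;> fin_cases b <;> simp_all [eq_comm]
  obtain ⟨f, hf⟩ := S.tri ![i, j, k] hinj
  refine ⟨f, fun t => ?_, fun t => ?_, fun t => ?_, fun t => ?_, fun t => ?_, fun t => ?_⟩
  · exact hf 0 1 t (by decide)
  · exact hf 1 0 t (by decide)
  · exact hf 0 2 t (by decide)
  · exact hf 2 0 t (by decide)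
  · exact hf 1 2 t (by decide)
  · exact hf 2 1 t (by decide)

theorem exists_third (hn : 3 ≤ n) (i j : Fin n) : ∃ k : Fin n, i ≠ k ∧ j ≠ k := by
  by_contra hcon
  push Not at hcon
  have h0 := hcon ⟨0, by omega⟩
  have h1 := hcon ⟨1, by omega⟩
  have h2 := hcon ⟨2, by omega⟩
  simp only [ne_eq, Fin.ext_iff] at h0 h1 h2
  omega

-- piece `relbasic` (all)
theorem x_add (hn : 3 ≤ n) (i j : Fin n) (hij : i ≠ j) (s t : F) :
    S.x i j (s + t) = S.x i j s * S.x i j t := by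
  obtain ⟨k, hik, hjk⟩ := exists_third hn i j
  obtain ⟨f, h01, h10, h02, h20, h12, h21⟩ := tri3 S i j k hij hik hjk
  simp only [← h01, ← map_mul]
  congr 1
  ext a b
  fin_cases a <;> fin_cases b <;>
    simp [Matrix.mul_apply, Fin.sum_univ_three, tv_apply, add_comm]

theorem x_zero (hn : 3 ≤ n) (i j : Fin n) (hij : i ≠ j) : S.x i j 0 = 1 := by
  have := x_add S hn i j hij 0 0
  rw [add_zero] at this
  exact (mul_eq_left.mp this.symm)

theorem x_neg (hn : 3 ≤ n) (i j : Fin n) (hij : i ≠ j) (t : F) :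
    (S.x i j t)⁻¹ = S.x i j (-t) := by
  have := x_add S hn i j hij t (-t)
  rw [add_neg_cancel, x_zero S hn i j hij] at this
  exact inv_eq_of_mul_eq_one_right this.symm

theorem x_comm_same (hn : 3 ≤ n) (i j : Fin n) (hij : i ≠ j) (s t : F) :
    Commute (S.x i j s) (S.x i j t) := by
  unfold Commute SemiconjBy
  rw [← x_add S hn i j hij, ← x_add S hn i j hij, add_comm]

theorem x_comm_row (i j k : Fin n) (hij : i ≠ j) (hik : i ≠ k) (hjk : j ≠ k) (s t : F) :
    Commute (S.x i j s) (S.x i k t) := by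
  obtain ⟨f, h01, h10, h02, h20, h12, h21⟩ := tri3 S i j k hij hik hjk
  unfold Commute SemiconjBy
  simp only [← h01, ← h02, ← map_mul]
  congr 1
  ext a b
  fin_cases a <;> fin_cases b <;>
    simp [Matrix.mul_apply, Fin.sum_univ_three, tv_apply]

theorem x_comm_col (i j k : Fin n) (hij : i ≠ j) (hik : i ≠ k) (hjk : j ≠ k) (s t : F) :
    Commute (S.x i k s) (S.x j k t) := by
  obtain ⟨f, h01, h10, h02, h20, h12, h21⟩ := tri3 S i j k hij hik hjk
  unfold Commute SemiconjBy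
  simp only [← h12, ← h02, ← map_mul]
  congr 1
  ext a b
  fin_cases a <;> fin_cases b <;>
    simp [Matrix.mul_apply, Fin.sum_univ_three, tv_apply]

theorem x_chain (i j k : Fin n) (hij : i ≠ j) (hik : i ≠ k) (hjk : j ≠ k) (s t : F) :
    S.x i j s * S.x j k t * (S.x i j s)⁻¹ = S.x i k (s * t) * S.x j k t := by
  obtain ⟨f, h01, h10, h02, h20, h12, h21⟩ := tri3 S i j k hij hik hjk
  simp only [← h01, ← h12, ← h02, ← map_mul, ← map_inv]
  congr 1
  simp only [tv_inv]
  ext a b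
  fin_cases a <;> fin_cases b <;>
    simp [Matrix.mul_apply, Fin.sum_univ_three, tv_apply]

theorem x_chain' (i j k : Fin n) (hij : i ≠ j) (hik : i ≠ k) (hjk : j ≠ k) (s t : F) :
    S.x j k t * S.x i j s * (S.x j k t)⁻¹ = S.x i k (-(s * t)) * S.x i j s := by
  obtain ⟨f, h01, h10, h02, h20, h12, h21⟩ := tri3 S i j k hij hik hjk
  simp only [← h01, ← h12, ← h02, ← map_mul, ← map_inv]
  congr 1
  simp only [tv_inv]
  ext a b
  fin_cases a <;> fin_cases b <;>
    simp [Matrix.mul_apply, Fin.sum_univ_three, tv_apply]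

end Cfsg.Agent.Lib.Helper30BPRelbasic
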