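import Mathlib
import Cfsg.Agent.Lib.Helper43StDefs
import Cfsg.Agent.Lib.Helper30BPRelbasic

set_option autoImplicit false

/-! PROJECT 43 wave 2, piece `vinj`. -/

namespace Cfsg.Agent.Lib.Helper15BPVinj

open Matrix Cfsg.Agent.Lib.Helper43St Cfsg.Agent.Lib.Helper30BPRelbasic

variable {n : ℕ} {F : Type*} [Field F] {P : Type*} [Group P] (S : StSys n F P)

/-- the shape of the matrices in `π (V k)` -/
def Shape (k : Fin n) (M : Matrix (Fin n) (Fin n) F) : Prop :=
  (∀ a j, j ≠ k → M a j = if a = j then 1 else 0) ∧ M k k = 1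

theorem shape_mul_col {k : Fin n} {M M' : Matrix (Fin n) (Fin n) F} (h : Shape k M)
    (h' : Shape k M') (a : Fin n) : (M * M') a k = (if a = k then 0 else M' a k) + M a k := by
  rw [Matrix.mul_apply, ← Finset.add_sum_erase _ _ (Finset.mem_univ k), h'.2, mul_one, add_comm]
  congr 1
  by_cases hak : a = k
  · rw [if_pos hak]
    apply Finset.sum_eq_zero
    intro j hj
    rw [h.1 a j (Finset.ne_of_mem_erase hj), if_neg (by rw [hak]; exact (Finset.ne_of_mem_erase hj).symm),
      zero_mul]
  · rw [if_neg hak, Finset.sum_eq_single a]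
    · rw [h.1 a a hak, if_pos rfl, one_mul]
    · intro j hj hja
      rw [h.1 a j (Finset.ne_of_mem_erase hj), if_neg (Ne.symm hja), zero_mul]
    · intro ha
      exact absurd (Finset.mem_erase.2 ⟨hak, Finset.mem_univ _⟩) ha

theorem shape_mul {k : Fin n} {M M' : Matrix (Fin n) (Fin n) F} (h : Shape k M)
    (h' : Shape k M') : Shape k (M * M') := by
  constructor
  · intro a j hj
    rw [Matrix.mul_apply, Finset.sum_eq_single j]
    · rw [h'.1 j j hj, if_pos rfl, mul_one, h.1 a j hj]
    · intro b _ hb
      rw [h'.1 b j hj, if_neg hb, mul_zero]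
    · intro hh
      exact absurd (Finset.mem_univ _) hh
  · rw [shape_mul_col h h', if_pos rfl, zero_add, h.2]

theorem shape_one (k : Fin n) : Shape k (1 : Matrix (Fin n) (Fin n) F) :=
  ⟨fun a j _ => Matrix.one_apply, Matrix.one_apply_eq k⟩

theorem shape_of_mul_eq_one {k : Fin n} {M N : Matrix (Fin n) (Fin n) F} (h : Shape k M)
    (hNM : N * M = 1) : Shape k N := by
  have h1 : ∀ a j, j ≠ k → N a j = if a = j then 1 else 0 := by
    intro a j hj
    have := congrFun (congrFun hNM a) j
    rw [Matrix.mul_apply, Finset.sum_eq_single j, h.1 j j hj, if_pos rfl, mul_one,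
      Matrix.one_apply] at this
    · exact this
    · intro b _ hb
      rw [h.1 b j hj, if_neg hb, mul_zero]
    · intro hh
      exact absurd (Finset.mem_univ _) hh
  refine ⟨h1, ?_⟩
  have := congrFun (congrFun hNM k) k
  rw [Matrix.mul_apply, Finset.sum_eq_single k, h.2, mul_one, Matrix.one_apply_eq] at this
  · exact this
  · intro b _ hb
    rw [h1 k b hb, if_neg (Ne.symm hb), zero_mul]
  · intro hh
    exact absurd (Finset.mem_univ _) hh

theorem shape_tv (i k : Fin n) (hik : i ≠ k) (t : F) :
    Shape k ((tv i k t : SpecialLinearGroup (Fin n) F) : Matrix (Fin n) (Fin n) F) := by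
  constructor
  · intro a j hj
    have := tv_apply i k hik t a j
    rw [if_neg (fun h : i = a ∧ k = j => hj h.2.symm), add_zero] at this
    exact this
  · have := tv_apply i k hik t k k
    rw [if_pos rfl, if_neg (fun h : i = k ∧ k = k => hik h.1), add_zero] at this
    exact this

theorem shape_V (k : Fin n) (v : P) (hv : v ∈ S.V k) : Shape k (S.π v).1 := by
  induction hv using Subgroup.closure_induction with
  | mem y hy =>
    obtain ⟨i, t, hik, rfl⟩ := hy
    rw [S.hπ _ _ _ hik.ne]
    exact shape_tv i k hik.ne t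
  | one => rw [map_one]; exact shape_one k
  | mul y y' _ _ ih ih' => rw [map_mul]; exact shape_mul ih ih'
  | inv y _ ih =>
    apply shape_of_mul_eq_one ih
    have : S.π y⁻¹ * S.π y = 1 := by rw [← map_mul, inv_mul_cancel, map_one]
    exact congrArg Subtype.val this

/-- the column vector -/
def colvec (k : Fin n) (v : P) : Fin n → Multiplicative F :=
  fun a => Multiplicative.ofAdd (if a = k then 0 else (S.π v).1 a k)

theorem colvec_mul (k : Fin n) (v v' : P) (hv : v ∈ S.V k) (hv' : v' ∈ S.V k) :
    colvec S k (v * v') = colvec S k v * colvec S k v' := by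
  funext a
  show Multiplicative.ofAdd (if a = k then 0 else (S.π (v * v')).1 a k) =
    Multiplicative.ofAdd (if a = k then 0 else (S.π v).1 a k) *
      Multiplicative.ofAdd (if a = k then 0 else (S.π v').1 a k)
  rw [← ofAdd_add]
  congr 1
  by_cases hak : a = k
  · simp [hak]
  · rw [if_neg hak, if_neg hak, if_neg hak, map_mul]
    have := shape_mul_col (shape_V S k v hv) (shape_V S k v' hv') a
    rw [if_neg hak] at this
    rw [add_comm]
    exact this

theorem colvec_one (k : Fin n) : colvec S k 1 = 1 := by
  funext a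
  show Multiplicative.ofAdd (if a = k then 0 else (S.π 1).1 a k) = Multiplicative.ofAdd (0 : F)
  congr 1
  by_cases hak : a = k
  · rw [if_pos hak]
  · rw [if_neg hak, map_one]
    exact Matrix.one_apply_ne hak

theorem colvec_inv (k : Fin n) (v : P) (hv : v ∈ S.V k) :
    colvec S k v⁻¹ = (colvec S k v)⁻¹ := by
  apply eq_inv_of_mul_eq_one_left
  rw [← colvec_mul S k _ _ (inv_mem hv) hv, inv_mul_cancel, colvec_one]

theorem colvec_x (i k : Fin n) (hik : i ≠ k) (t : F) :
    colvec S k (S.x i k t) = Pi.mulSingle i (Multiplicative.ofAdd t) := by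
  funext a
  unfold colvec
  rw [S.hπ _ _ _ hik]
  by_cases hak : a = k
  · rw [if_pos hak, Pi.mulSingle_eq_of_ne (by rw [hak]; exact hik.symm)]
    rfl
  · rw [if_neg hak]
    have := tv_apply i k hik t a k
    rw [if_neg hak, zero_add] at this
    by_cases hia : i = a
    · subst hia
      rw [if_pos ⟨rfl, rfl⟩] at this
      rw [Pi.mulSingle_eq_same]
      exact congrArg _ this
    · rw [if_neg (fun h : i = a ∧ k = k => hia h.1)] at this
      rw [Pi.mulSingle_eq_of_ne (Ne.symm hia)]
      exact congrArg Multiplicative.ofAdd this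

/-- the one-parameter subgroups -/
def phi (hn : 3 ≤ n) (k i : Fin n) : Multiplicative F →* P where
  toFun t := if i < k then S.x i k (Multiplicative.toAdd t) else 1
  map_one' := by
    split_ifs with h
    · exact x_zero S hn i k h.ne
    · rfl
  map_mul' s t := by
    split_ifs with h
    · exact x_add S hn i k h.ne _ _
    · rw [one_mul]

theorem phi_comm (hn : 3 ≤ n) (k : Fin n) :
    Pairwise fun i j => ∀ s t, Commute (phi S hn k i s) (phi S hn k j t) := by
  intro i j hij s t
  show Commute (if i < k then S.x i k (Multiplicative.toAdd s) else 1)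
    (if j < k then S.x j k (Multiplicative.toAdd t) else 1)
  split_ifs with h1 h2
  · exact x_comm_col S i j k hij h1.ne h2.ne _ _
  · exact Commute.one_right _
  · exact Commute.one_left _
  · exact Commute.one_left _

theorem E_colvec (hn : 3 ≤ n) (k : Fin n) (v : P) (hv : v ∈ S.V k) :
    MonoidHom.noncommPiCoprod (phi S hn k) (phi_comm S hn k) (colvec S k v) = v := by
  induction hv using Subgroup.closure_induction with
  | mem y hy =>
    obtain ⟨i, t, hik, rfl⟩ := hy
    rw [colvec_x S i k hik.ne, MonoidHom.noncommPiCoprod_mulSingle]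
    show (if i < k then S.x i k t else 1) = _
    rw [if_pos hik]
  | one => rw [colvec_one, map_one]
  | mul y y' hy hy' ih ih' => rw [colvec_mul S k _ _ hy hy', map_mul, ih, ih']
  | inv y hy ih => rw [colvec_inv S k _ hy, map_inv, ih]

-- piece `vinj`
theorem v_inj (hn : 3 ≤ n) (k : Fin n) (v : P) (hv : v ∈ S.V k)
    (h : (S.π v).1 *ᵥ Pi.single k 1 = Pi.single k 1) : v = 1 := by
  have h0 : colvec S k v = 1 := by
    funext a
    show Multiplicative.ofAdd (if a = k then 0 else (S.π v).1 a k) = Multiplicative.ofAdd (0 : F)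
    congr 1
    by_cases hak : a = k
    · rw [if_pos hak]
    · rw [if_neg hak]
      have := congrFun h a
      rw [Matrix.mulVec_single_one, Pi.single_eq_of_ne hak] at this
      exact this
  rw [← E_colvec S hn k v hv, h0, map_one]

end Cfsg.Agent.Lib.Helper15BPVinj
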