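import Mathlib
import Cfsg.Agent.Lib.Helper43StDefs

set_option autoImplicit false

/-! PROJECT 43 wave 2, piece `wact` (self-contained: uses only `S.tri`, `S.dis`). -/

namespace Cfsg.Agent.Lib.Helper15BPWact

open Matrix Cfsg.Agent.Lib.Helper43St

section sl3

variable {F : Type*} [Field F]

theorem sw0 : Equiv.swap (0 : Fin 3) 1 0 = 1 := by decide
theorem sw1 : Equiv.swap (0 : Fin 3) 1 1 = 0 := by decide
theorem sw2 : Equiv.swap (0 : Fin 3) 1 2 = 2 := by decide

/-- the matrix of `w_{01}(1)` -/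
def W3 (F : Type*) [Field F] : SpecialLinearGroup (Fin 3) F := tv 0 1 1 * tv 1 0 (-1⁻¹) * tv 0 1 1

theorem W3_apply (i j : Fin 3) : (W3 F) i j = (!![0, 1, 0; -1, 0, 0; 0, 0, 1] : Matrix _ _ F) i j := by
  unfold W3
  fin_cases i <;> fin_cases j <;>
    simp [Matrix.mul_apply, Fin.sum_univ_three, tv_apply]

theorem fam1 (a b a' b' : Fin 3) (hab : a ≠ b) (ha' : a' = Equiv.swap 0 1 a)
    (hb' : b' = Equiv.swap 0 1 b) :
    (∀ t : F, W3 F * tv a b t = tv a' b' t * W3 F) ∨
      (∀ t : F, W3 F * tv a b t = tv a' b' (-t) * W3 F) := by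
  subst ha' hb'
  fin_cases a <;> fin_cases b <;> first
    | exact absurd rfl hab
    | (left
       intro t
       simp only [Fin.zero_eta, Fin.mk_one, Fin.reduceFinMk, sw0, sw1, sw2]
       ext i j
       fin_cases i <;> fin_cases j <;>
         simp [Matrix.mul_apply, Fin.sum_univ_three, tv_apply, W3_apply]
       done)
    | (right
       intro t
       simp only [Fin.zero_eta, Fin.mk_one, Fin.reduceFinMk, sw0, sw1, sw2]
       ext i j
       fin_cases i <;> fin_cases j <;>
         simp [Matrix.mul_apply, Fin.sum_univ_three, tv_apply, W3_apply]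
       done)

theorem sl3_w (a b : Fin 3) (hab : a ≠ b) (t : F) :
    (∃ t', W3 F * tv a b t * (W3 F)⁻¹ = tv (Equiv.swap 0 1 a) (Equiv.swap 0 1 b) t') ∧
    (∃ t', (W3 F)⁻¹ * tv a b t * W3 F = tv (Equiv.swap 0 1 a) (Equiv.swap 0 1 b) t') := by
  constructor
  · rcases fam1 (F := F) a b _ _ hab rfl rfl with h | h
    · exact ⟨t, by rw [h t, mul_inv_cancel_right]⟩
    · exact ⟨-t, by rw [h t, mul_inv_cancel_right]⟩
  · have hab' : Equiv.swap (0 : Fin 3) 1 a ≠ Equiv.swap 0 1 b := (Equiv.swap 0 1).injective.ne hab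
    rcases fam1 (F := F) (Equiv.swap 0 1 a) (Equiv.swap 0 1 b) a b hab' (by simp) (by simp)
      with h | h
    · exact ⟨t, by rw [mul_assoc, ← h t, inv_mul_cancel_left]⟩
    · refine ⟨-t, ?_⟩
      have := h (-t)
      rw [neg_neg] at this
      rw [mul_assoc, ← this, inv_mul_cancel_left]

end sl3

variable {n : ℕ} {F : Type*} [Field F] {P : Type*} [Group P] (S : StSys n F P)

theorem w_act_tri (i j m : Fin n) (hij : i ≠ j) (him : i ≠ m) (hjm : j ≠ m) (a b : Fin 3)
    (hab : a ≠ b) (t : F) :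
    (∃ t', S.w i j 1 * S.x (![i, j, m] a) (![i, j, m] b) t * (S.w i j 1)⁻¹ =
      S.x (Equiv.swap i j (![i, j, m] a)) (Equiv.swap i j (![i, j, m] b)) t') ∧
    (∃ t', (S.w i j 1)⁻¹ * S.x (![i, j, m] a) (![i, j, m] b) t * S.w i j 1 =
      S.x (Equiv.swap i j (![i, j, m] a)) (Equiv.swap i j (![i, j, m] b)) t') := by
  have hinj : Function.Injective ![i, j, m] := by
    intro a b h
    fin_cases a <;> fin_cases b <;> simp_all [eq_comm]
  obtain ⟨f, hf⟩ := S.tri ![i, j, m] hinj
  have hW : S.w i j 1 = f (W3 F) := by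
    unfold StSys.w W3
    rw [map_mul, map_mul, hf 0 1 _ (by decide), hf 1 0 _ (by decide)]
    rfl
  have hsw : ∀ c : Fin 3, Equiv.swap i j (![i, j, m] c) = ![i, j, m] (Equiv.swap 0 1 c) := by
    intro c
    fin_cases c
    · simp [sw0]
    · simp [sw1]
    · simp only [Fin.reduceFinMk, sw2]
      exact Equiv.swap_apply_of_ne_of_ne him.symm hjm.symm
  have hab' : Equiv.swap (0 : Fin 3) 1 a ≠ Equiv.swap 0 1 b := (Equiv.swap 0 1).injective.ne hab
  obtain ⟨⟨t1, h1⟩, ⟨t2, h2⟩⟩ := sl3_w (F := F) a b hab t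
  constructor
  · refine ⟨t1, ?_⟩
    rw [hW, ← hf a b t hab, ← map_inv, ← map_mul, ← map_mul, h1, hf _ _ _ hab', hsw, hsw]
  · refine ⟨t2, ?_⟩
    rw [hW, ← hf a b t hab, ← map_inv, ← map_mul, ← map_mul, h2, hf _ _ _ hab', hsw, hsw]

theorem exists_third' (hn : 3 ≤ n) (i j : Fin n) : ∃ k : Fin n, i ≠ k ∧ j ≠ k := by
  by_contra hcon
  push Not at hcon
  have h1 : (Finset.univ : Finset (Fin n)) ⊆ {i, j} := by
    intro k _
    by_cases h : i = k
    · simp [h]
    · simp [hcon k h]
  have h2 := Finset.card_le_card h1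
  have h3 : ({i, j} : Finset (Fin n)).card ≤ 2 := Finset.card_le_two
  rw [Finset.card_univ, Fintype.card_fin] at h2
  omega

-- piece `wact`
theorem w_act (hn : 3 ≤ n) (i j : Fin n) (hij : i ≠ j) (k l : Fin n) (hkl : k ≠ l) (t : F) :
    (∃ t', S.w i j 1 * S.x k l t * (S.w i j 1)⁻¹ = S.x (Equiv.swap i j k) (Equiv.swap i j l) t') ∧
    (∃ t', (S.w i j 1)⁻¹ * S.x k l t * S.w i j 1 = S.x (Equiv.swap i j k) (Equiv.swap i j l) t') := by
  by_cases hki : k = i
  · subst hki
    by_cases hlj : l = j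
    · subst hlj
      obtain ⟨m, h1, h2⟩ := exists_third' hn k l
      exact w_act_tri S k l m hij h1 h2 0 1 (by decide) t
    · exact w_act_tri S k j l hij hkl (Ne.symm hlj) 0 2 (by decide) t
  · by_cases hkj : k = j
    · subst hkj
      by_cases hli : l = i
      · subst hli
        obtain ⟨m, h1, h2⟩ := exists_third' hn l k
        exact w_act_tri S l k m hij h1 h2 1 0 (by decide) t
      · exact w_act_tri S i k l hij (Ne.symm hli) hkl 1 2 (by decide) t
    · by_cases hli : l = i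
      · subst hli
        exact w_act_tri S l j k hij (Ne.symm hki) (Ne.symm hkj) 2 0 (by decide) t
      · by_cases hlj : l = j
        · subst hlj
          exact w_act_tri S i l k hij (Ne.symm hki) (Ne.symm hkj) 2 1 (by decide) t
        · rw [Equiv.swap_apply_of_ne_of_ne hki hkj, Equiv.swap_apply_of_ne_of_ne hli hlj]
          have c1 : ∀ s, Commute (S.x i j s) (S.x k l t) := fun s =>
            S.dis i j k l hij hkl (Ne.symm hki) (Ne.symm hli) (Ne.symm hkj) (Ne.symm hlj) s t
          have c2 : ∀ s, Commute (S.x j i s) (S.x k l t) := fun s =>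
            S.dis j i k l hij.symm hkl (Ne.symm hkj) (Ne.symm hlj) (Ne.symm hki) (Ne.symm hli) s t
          have c3 : Commute (S.w i j 1) (S.x k l t) := by
            unfold StSys.w
            exact ((c1 _).mul_left (c2 _)).mul_left (c1 _)
          constructor
          · exact ⟨t, by rw [c3.eq, mul_inv_cancel_right]⟩
          · exact ⟨t, by rw [mul_assoc, ← c3.eq, inv_mul_cancel_left]⟩

end Cfsg.Agent.Lib.Helper15BPWact
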