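import Cfsg.Agent.Lib.Helper96ExtDefs

set_option autoImplicit false

namespace Cfsg.Agent.Lib.Helper15Extd2

open Module Cfsg.Agent.Lib.Helper96ExtDefs

variable {F K V : Type*} [Field F] [Field K] [Algebra F K] [AddCommGroup V] [Module F V] [Module K V]
  [IsScalarTower F K V] [Finite F] [Finite K] [Finite V]
variable {G : Subgroup (Module.End F V)ˣ}

omit [Finite F] [Finite K] [Finite V] in
/-- a functional with value one at a vector outside a subspace on which it vanishes -/
theorem exists_dual_one {p : Submodule K V} {x : V} (hx : x ∉ p) :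
    ∃ φ : Module.Dual K V, φ x = 1 ∧ ∀ v ∈ p, φ v = 0 := by
  obtain ⟨f, hf, hp⟩ := Submodule.exists_le_ker_of_notMem hx
  refine ⟨(f x)⁻¹ • f, by simp [hf], fun v hv => ?_⟩
  have : f v = 0 := hp hv
  simp [this]

omit [Finite F] [Finite K] [Finite V] in
theorem move_step (hbig : Big K G) {a b : V} (ha : a ≠ 0) (hb : b ∉ Submodule.span K {a}) :
    ∃ g ∈ G, (∀ (k : K) (v : V), (g : Module.End F V) (k • v) = k • (g : Module.End F V) v) ∧
      (g : Module.End F V) a = b := by
  have h1 : a ∉ Submodule.span K {b - a} := by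
    intro h
    obtain ⟨k, hk⟩ := Submodule.mem_span_singleton.1 h
    by_cases hk0 : k = 0
    · subst hk0
      rw [zero_smul] at hk
      exact ha hk.symm
    · apply hb
      rw [Submodule.mem_span_singleton]
      refine ⟨k⁻¹ * (1 + k), ?_⟩
      have e : k • b = (1 + k) • a := by
        rw [smul_sub] at hk
        rw [add_smul, one_smul]
        exact (sub_eq_iff_eq_add.1 hk)
      rw [mul_smul, ← e, smul_smul, inv_mul_cancel₀ hk0, one_smul]
  obtain ⟨φ, hφa, hφ⟩ := exists_dual_one h1
  have hφy : φ (b - a) = 0 := hφ _ (Submodule.mem_span_singleton_self _)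
  obtain ⟨g, hg, hge⟩ := hbig φ (b - a) (by rw [hφy, add_zero, map_one])
  refine ⟨g, hg, fun k v => ?_, ?_⟩
  · rw [hge]
    simp only [LinearMap.add_apply, Module.End.one_apply, rk_apply, map_smul, smul_eq_mul, smul_add, mul_smul]
  · rw [hge]
    simp [hφa]

/-- piece `d2` -/
theorem exists_move (hm : 2 ≤ finrank K V) (hbig : Big K G) {a b : V} (ha : a ≠ 0) (hb : b ≠ 0) :
    ∃ g ∈ G, (∀ (k : K) (v : V), (g : Module.End F V) (k • v) = k • (g : Module.End F V) v) ∧
      (g : Module.End F V) a = b := by
  by_cases hba : b ∈ Submodule.span K {a}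
  · have hne : Submodule.span K {a} ≠ ⊤ := by
      intro h
      have h1 : finrank K (Submodule.span K {a}) = 1 := finrank_span_singleton ha
      rw [h, finrank_top] at h1
      omega
    obtain ⟨c, hc⟩ : ∃ c, c ∉ Submodule.span K {a} := by
      by_contra hcon
      exact hne (eq_top_iff.2 fun x _ => by
        by_contra hx
        exact hcon ⟨x, hx⟩)
    have hc0 : c ≠ 0 := by
      rintro rfl
      exact hc (Submodule.zero_mem _)
    have hbc : b ∉ Submodule.span K {c} := by
      intro h
      obtain ⟨k, hk⟩ := Submodule.mem_span_singleton.1 h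
      have hk0 : k ≠ 0 := by
        rintro rfl
        rw [zero_smul] at hk
        exact hb hk.symm
      apply hc
      have : c = k⁻¹ • b := by rw [← hk, smul_smul, inv_mul_cancel₀ hk0, one_smul]
      rw [this]
      exact Submodule.smul_mem _ _ hba
    obtain ⟨g1, hg1, hl1, he1⟩ := move_step (F := F) hbig ha hc
    obtain ⟨g2, hg2, hl2, he2⟩ := move_step (F := F) hbig hc0 hbc
    refine ⟨g2 * g1, G.mul_mem hg2 hg1, fun k v => ?_, ?_⟩
    · simp only [Units.val_mul, Module.End.mul_apply, hl1, hl2]
    · simp only [Units.val_mul, Module.End.mul_apply, he1, he2]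
  · exact move_step hbig ha hba

end Cfsg.Agent.Lib.Helper15Extd2
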