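import Cfsg.Agent.Lib.Helper96ExtDefs

set_option autoImplicit false

namespace Cfsg.Agent.Lib.Helper15Exte1

open Module Cfsg.Agent.Lib.Helper96ExtDefs

variable {F K V : Type*} [Field F] [Field K] [Algebra F K] [AddCommGroup V] [Module F V] [Module K V]
  [IsScalarTower F K V] [Finite F] [Finite K] [Finite V]
variable {G : Subgroup (Module.End F V)ˣ}

/-- piece `e1` -/
theorem det_one_add_rk (φ : Module.Dual K V) (y : V) :
    LinearMap.det (1 + rk F φ y) = Algebra.norm F (1 + φ y) := by
  have e : (1 + rk F φ y : Module.End F V) = (LinearMap.transvection φ y).restrictScalars F := by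
    ext v
    simp [LinearMap.transvection]
  rw [e, LinearMap.det_restrictScalars, LinearMap.transvection.det]

end Cfsg.Agent.Lib.Helper15Exte1
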