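import Cfsg.Agent.Lib.Helper96ExtDefs

set_option autoImplicit false

namespace Cfsg.Agent.Lib.Helper15Exte1big

open Module Cfsg.Agent.Lib.Helper96ExtDefs

variable {F K V : Type*} [Field F] [Field K] [Algebra F K] [AddCommGroup V] [Module F V] [Module K V]
  [IsScalarTower F K V] [Finite F] [Finite K] [Finite V]
variable {G : Subgroup (Module.End F V)ˣ}

/-- piece `e1big` -/
theorem big_of
    (hdet : ∀ (φ : Module.Dual K V) (y : V), LinearMap.det (1 + rk F φ y) = Algebra.norm F (1 + φ y))
    (hG : ∀ g : (Module.End F V)ˣ,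
      (∀ (k : K) (v : V), (g : Module.End F V) (k • v) = k • (g : Module.End F V) v) →
      LinearMap.det (g : Module.End F V) = 1 → g ∈ G) : Big K G := by
  intro φ y hN
  have hd : LinearMap.det (1 + rk F φ y) = 1 := by rw [hdet, hN]
  have hu : IsUnit (1 + rk F φ y : Module.End F V) :=
    (LinearMap.isUnit_iff_isUnit_det _).2 (by rw [hd]; exact isUnit_one)
  obtain ⟨g, hg⟩ := hu
  refine ⟨g, hG g ?_ (by rw [hg, hd]), hg⟩
  intro k v
  rw [hg]
  simp only [LinearMap.add_apply, Module.End.one_apply, rk_apply, map_smul, smul_eq_mul, smul_add, mul_smul]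

end Cfsg.Agent.Lib.Helper15Exte1big
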