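import Cfsg.Agent.Lib.Helper96ExtDefs

set_option autoImplicit false

namespace Cfsg.Agent.Lib.Helper15Exte3abs

open Module Cfsg.Agent.Lib.Helper96ExtDefs

variable {F K V : Type*} [Field F] [Field K] [Algebra F K] [AddCommGroup V] [Module F V] [Module K V]
  [IsScalarTower F K V] [Finite F] [Finite K] [Finite V]
variable {G : Subgroup (Module.End F V)ˣ}

/-- piece `e3abs` -/
theorem det_surj_abs
    (hdet : ∀ (φ : Module.Dual K V) (y : V), LinearMap.det (1 + rk F φ y) = Algebra.norm F (1 + φ y))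
    (hV : 0 < finrank F V) (c : F) (hc : c ≠ 0) :
    ∃ g : (Module.End F V)ˣ,
      (∀ (k : K) (v : V), (g : Module.End F V) (k • v) = k • (g : Module.End F V) v) ∧
      LinearMap.det (g : Module.End F V) = c := by
  haveI : Nontrivial V := Module.nontrivial_of_finrank_pos hV
  obtain ⟨y₀, hy₀⟩ := exists_ne (0 : V)
  have hy : y₀ ∉ (⊥ : Submodule K V) := by simpa using hy₀
  obtain ⟨f, hf, -⟩ := Submodule.exists_le_ker_of_notMem hy
  obtain ⟨k, hk⟩ := FiniteField.norm_surjective F K c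
  have hd : LinearMap.det (1 + rk F ((f y₀)⁻¹ • f) ((k - 1) • y₀)) = c := by
    rw [hdet, ← hk]
    congr 1
    simp [hf]
  have hu : IsUnit (1 + rk F ((f y₀)⁻¹ • f) ((k - 1) • y₀) : Module.End F V) :=
    (LinearMap.isUnit_iff_isUnit_det _).2 (by rw [hd]; exact hc.isUnit)
  obtain ⟨g, hg⟩ := hu
  refine ⟨g, ?_, by rw [hg, hd]⟩
  intro k' v
  rw [hg]
  simp only [LinearMap.add_apply, Module.End.one_apply, rk_apply, map_smul, smul_eq_mul, smul_add, mul_smul]

end Cfsg.Agent.Lib.Helper15Exte3abs
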