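import Cfsg.Agent.Lib.Helper96ExtDefs

set_option autoImplicit false

namespace Cfsg.Agent.Lib.Helper15Exte4abs

open Module Cfsg.Agent.Lib.Helper96ExtDefs

variable {F K V : Type*} [Field F] [Field K] [Algebra F K] [AddCommGroup V] [Module F V] [Module K V]
  [IsScalarTower F K V] [Finite F] [Finite K] [Finite V]
variable {G : Subgroup (Module.End F V)ˣ}

/-- piece `e4abs` -/
theorem proper_abs (hr : 2 ≤ finrank F K) (hlt : finrank F K < finrank F V) :
    ∃ (ψ : Module.Dual F V) (w : V), ψ w = 0 ∧
      ¬ ∀ k : K, ∃ k' : K, ∀ v, (1 + ψ.smulRight w : Module.End F V) (k • v) =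
        k' • (1 + ψ.smulRight w : Module.End F V) v := by
  haveI : Nontrivial V := Module.nontrivial_of_finrank_pos (lt_of_le_of_lt (Nat.zero_le _) hlt)
  obtain ⟨w, hw⟩ := exists_ne (0 : V)
  -- an element of `K` outside `F`
  obtain ⟨k, hk⟩ : ∃ k : K, ∀ f : F, algebraMap F K f ≠ k := by
    by_contra hcon
    have hsurj : Function.Surjective (Algebra.linearMap F K) := by
      intro k
      by_contra hk
      exact hcon ⟨k, fun f hf => hk ⟨f, hf⟩⟩
    have h1 := LinearMap.finrank_range_le (Algebra.linearMap F K)
    rw [LinearMap.range_eq_top.2 hsurj, finrank_top, finrank_self] at h1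
    omega
  have hkw : k • w ∉ Submodule.span F {w} := by
    intro h
    obtain ⟨f, hf⟩ := Submodule.mem_span_singleton.1 h
    rw [← algebraMap_smul K f w] at hf
    have h0 : (algebraMap F K f - k) • w = 0 := by rw [sub_smul, hf, sub_self]
    rcases smul_eq_zero.1 h0 with h0 | h0
    · exact hk f (sub_eq_zero.1 h0)
    · exact hw h0
  obtain ⟨f, hf, hp⟩ := Submodule.exists_le_ker_of_notMem hkw
  have hfw : f w = 0 := hp (Submodule.mem_span_singleton_self w)
  refine ⟨(f (k • w))⁻¹ • f, w, by simp [hfw], fun hall => ?_⟩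
  set ψ : Module.Dual F V := (f (k • w))⁻¹ • f with hψ
  have hψw : ψ w = 0 := by simp [hψ, hfw]
  have hψk : ψ (k • w) = 1 := by simp [hψ, hf]
  obtain ⟨k', hk'⟩ := hall k
  have e1 := hk' w
  simp only [LinearMap.add_apply, Module.End.one_apply, LinearMap.smulRight_apply, hψw, hψk, zero_smul,
    add_zero, one_smul] at e1
  have hk'e : k' = k + 1 := by
    have h0 : (k + 1 - k') • w = 0 := by rw [sub_smul, add_smul, one_smul, e1, sub_self]
    rcases smul_eq_zero.1 h0 with h0 | h0
    · exact (sub_eq_zero.1 h0).symm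
    · exact absurd h0 hw
  have hsurj : Function.Surjective ((LinearMap.toSpanSingleton K V w).restrictScalars F) := by
    intro v
    have e2 := hk' v
    simp only [LinearMap.add_apply, Module.End.one_apply, LinearMap.smulRight_apply, hk'e] at e2
    refine ⟨algebraMap F K (ψ (k • v)) - (k + 1) * algebraMap F K (ψ v), ?_⟩
    simp only [LinearMap.coe_restrictScalars, LinearMap.toSpanSingleton_apply, sub_smul, mul_smul,
      algebraMap_smul]
    rw [smul_add, add_smul k 1 v, one_smul] at e2
    have e3 : ψ (k • v) • w = v + (k + 1) • ψ v • w := by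
      have := congrArg (fun z => z - k • v) e2
      simp only [add_sub_cancel_left] at this
      rw [this]
      abel
    rw [e3]
    abel
  have h1 := LinearMap.finrank_range_le ((LinearMap.toSpanSingleton K V w).restrictScalars F)
  rw [LinearMap.range_eq_top.2 hsurj, finrank_top] at h1
  omega

end Cfsg.Agent.Lib.Helper15Exte4abs
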