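import Mathlib
import Cfsg.Agent.Lib.Helper61HigDefs
import Cfsg.Agent.Lib.Helper3HigBasic
import Cfsg.Agent.Lib.Helper3HigCwgroup
import Cfsg.Agent.Lib.Helper15HigPowq

/-! PROJECT 61: the row S1138 in `HS` form, relative to `center_exp` (`hZ`) and `HC` (`hexp`). -/

set_option autoImplicit false

namespace Cfsg.Agent.Lib.Helper15HigRow

open Subgroup
open Cfsg.Agent.Lib.Helper61HigDefs Cfsg.Agent.Lib.Helper3HigBasic

universe u v

variable {P : Type u} {A : Type v} [Group P] [Group A] {f : A →* MulAut P}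

theorem sq_central (h : HS f) (hexp : ∀ x : P, x ^ 4 = 1) (x : P) : x * x ∈ center P := by
  rw [mem_center_iff]
  intro g
  refine (invol_central h ?_ g).symm
  rw [← hexp x]
  simp only [pow_succ, pow_zero, one_mul, mul_assoc]

theorem comm_central (h : HS f) (hexp : ∀ x : P, x ^ 4 = 1) (x y : P) :
    x⁻¹ * y⁻¹ * x * y ∈ center P := by
  have e : x⁻¹ * y⁻¹ * x * y = (x * x)⁻¹ * ((x * y⁻¹) * (x * y⁻¹)) * (y * y) := by group
  rw [e]
  exact mul_mem (mul_mem (inv_mem (sq_central h hexp x)) (sq_central h hexp _)) (sq_central h hexp y)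

theorem card_center (h : HS f) (hZ : ∀ z ∈ center P, z * z = 1) :
    Nat.card (center P) = Nat.card A + 1 := by
  rw [← card_invol h]
  apply Nat.card_congr
  refine Equiv.subtypeEquivRight ?_
  intro z
  constructor
  · exact hZ z
  · intro hz
    rw [mem_center_iff]
    intro g
    exact (invol_central h hz g).symm

theorem row (h : HS f) (hna : ∃ x y : P, x * y ≠ y * x) (hZ : ∀ z ∈ center P, z * z = 1)
    (hexp : ∀ x : P, x ^ 4 = 1) :
    (∀ x : P, x * x ∈ Subgroup.center P) ∧ (∀ x y : P, x⁻¹ * y⁻¹ * x * y ∈ Subgroup.center P) ∧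
      (Nat.card P = Nat.card (Subgroup.center P) ^ 2 ∨ Nat.card P = Nat.card (Subgroup.center P) ^ 3) ∧
      Monoid.exponent P = 4 := by
  have hfin := h.fin
  refine ⟨sq_central h hexp, comm_central h hexp, ?_, ?_⟩
  · rw [card_center h hZ]
    obtain ⟨j, hj⟩ := Helper15HigPowq.card_eq_pow h
    have hc := Helper3HigCwgroup.card_le_cube h hexp
    obtain ⟨n, hn2, hn⟩ := exists_q h
    have hq : 1 < Nat.card A + 1 := by
      rw [hn]
      exact Nat.one_lt_two_pow (by omega)
    rw [hj] at hc
    have hj3 : j ≤ 3 := (Nat.pow_le_pow_iff_right hq).1 hc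
    have hj2 : 2 ≤ j := by
      by_contra hlt
      obtain ⟨x, y, hxy⟩ := hna
      apply hxy
      have hle : Nat.card P ≤ Nat.card (center P) := by
        rw [card_center h hZ, hj]
        calc (Nat.card A + 1) ^ j ≤ (Nat.card A + 1) ^ 1 :=
              Nat.pow_le_pow_right (by omega) (by omega)
          _ = _ := pow_one _
      have htop := Subgroup.eq_top_of_le_card _ hle
      have hy : y ∈ center P := htop ▸ mem_top y
      exact mem_center_iff.1 hy x
    have : j = 2 ∨ j = 3 := by omega
    rcases this with rfl | rfl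
    · exact Or.inl hj
    · exact Or.inr hj
  · have hd : Monoid.exponent P ∣ 2 ^ 2 := Monoid.exponent_dvd_of_forall_pow_eq_one hexp
    obtain ⟨k, hk, hk2⟩ := (Nat.dvd_prime_pow Nat.prime_two).1 hd
    by_cases hk' : k = 2
    · rw [hk2, hk']; norm_num
    · exfalso
      have hd2 : Monoid.exponent P ∣ 2 := by
        rw [hk2]
        calc 2 ^ k ∣ 2 ^ 1 := pow_dvd_pow 2 (by omega)
          _ = 2 := by norm_num
      obtain ⟨x, y, hxy⟩ := hna
      apply hxy
      apply invol_central h
      rw [← pow_two]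
      exact Monoid.exponent_dvd_iff_forall_pow_eq_one.1 hd2 x

end Cfsg.Agent.Lib.Helper15HigRow
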