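import Mathlib
import Cfsg.Agent.Lib.Helper44SLDefs
import Cfsg.Agent.Lib.Helper98MinDefs

set_option autoImplicit false

namespace Cfsg.Agent.Lib.Helper15SLnnhc

open Matrix Cfsg Cfsg.Agent.Lib.Helper44Wt Cfsg.Agent.Lib.Helper44SLDefs
  Cfsg.Agent.Lib.Helper44P1 Cfsg.Agent.Lib.Helper44GL2

variable {F : Type*} [Field F]

theorem up_mul_r2 {k : ℕ} (c : F) (y v : Fin k → F) :
    (upHom (Multiplicative.ofAdd (c, y)) : GG k F) * r2Hom (Multiplicative.ofAdd v) =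
      uK c (rows (c • v + y) v) := by
  rw [upHom_apply, r2Hom_apply, uK_mul, tt_mul_rows, rows_add, add_zero, zero_add, add_zero]

theorem r2_mul_up {k : ℕ} (c : F) (y v : Fin k → F) :
    (r2Hom (Multiplicative.ofAdd v) : GG k F) * upHom (Multiplicative.ofAdd (c, y)) =
      uK c (rows y v) := by
  rw [upHom_apply, r2Hom_apply, uK_mul, tt_zero, Matrix.one_mul, rows_add, add_zero, zero_add, zero_add]

theorem rows_eta {k : ℕ} (X : Matrix (Fin 2) (Fin k) F) : rows (X 0) (X 1) = X := by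
  ext i j
  fin_cases i <;> simp [rows]

theorem jHom_xGL (m : ℕ) (c : F) : jHom m (xGL (Multiplicative.ofAdd c)) = uK c 0 := by
  rw [jHom_apply]
  unfold lev uK
  apply pel_congr
  · exact xGL_coe c
  · rfl
  · have h1 : Matrix.GeneralLinearGroup.det (xGL (Multiplicative.ofAdd c)) = 1 := by
      apply Units.ext
      rw [Matrix.GeneralLinearGroup.val_det_apply, xGL_coe, det_tt]
      rfl
    rw [h1, inv_one, map_one]
    rfl

theorem ul_mul_j (m : ℕ) (c : F) (y₀ y₁ : Fin (m + 1) → F) :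
    ulHom (Multiplicative.ofAdd (y₀, y₁)) * jHom m (xGL (Multiplicative.ofAdd c)) =
      uK c (rows y₀ y₁) := by
  rw [jHom_xGL, ulHom_apply, uK_mul, Matrix.mul_zero, zero_add, zero_add]

section nnhc
variable [Fintype F]

theorem nn_eq_wt_hc (k : ℕ) (χ : GG k F → ℂ) (α : AddChar F ℂ) (β : AddChar (Fin k → F) ℂ) :
    nn χ α β = wt (MonoidHom.id (Multiplicative (Fin k → F))) (hc upHom (pc α 0) r2Hom χ) β := by
  unfold nn wt hc
  simp only [MonoidHom.id_apply, Fintype.sum_prod_type, up_mul_r2, pc_apply, AddChar.zero_apply, mul_one,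
    Fintype.card_prod, Nat.cast_mul]
  have key : ∀ v : Fin k → F, ∑ c : F, ∑ y : Fin k → F,
      χ (uK c (rows (c • v + y) v)) * (starRingEnd ℂ) (α c) =
      ∑ c : F, ∑ y : Fin k → F, χ (uK c (rows y v)) * (starRingEnd ℂ) (α c) := by
    intro v
    apply Finset.sum_congr rfl
    intro c _
    exact Equiv.sum_comp (Equiv.addLeft (c • v))
      (fun y => χ (uK c (rows y v)) * (starRingEnd ℂ) (α c))
  simp only [key]
  have e1 : ∑ c : F, ∑ y₀ : Fin k → F, ∑ y₁ : Fin k → F,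
      χ (uK c (rows y₀ y₁)) * (starRingEnd ℂ) (α c) * (starRingEnd ℂ) (β y₁) =
      ∑ v : Fin k → F, (∑ c : F, ∑ y : Fin k → F, χ (uK c (rows y v)) * (starRingEnd ℂ) (α c)) *
        (starRingEnd ℂ) (β v) := by
    simp only [Finset.sum_mul]
    conv_rhs => rw [Finset.sum_comm]
    apply Finset.sum_congr rfl
    intro c _
    rw [Finset.sum_comm]
  rw [e1, Finset.mul_sum, Finset.mul_sum]
  apply Finset.sum_congr rfl
  intro v _
  rw [mul_inv, mul_inv, sq, mul_inv]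
  ring

theorem r2_norm (k : ℕ) (α : AddChar F ℂ) (γ : Multiplicative (Fin k → F)) :
    ∃ σ : (F × (Fin k → F)) ≃ (F × (Fin k → F)),
      (∀ a, (r2Hom γ : GG k F) * upHom (Multiplicative.ofAdd a) * (r2Hom γ)⁻¹ =
        upHom (Multiplicative.ofAdd (σ a))) ∧
      ∀ a, pc α (0 : AddChar (Fin k → F) ℂ) (σ a) = pc α 0 a := by
  obtain ⟨v, rfl⟩ := Multiplicative.ofAdd.surjective γ
  refine ⟨⟨fun a => (a.1, a.2 - a.1 • v), fun a => (a.1, a.2 + a.1 • v), fun a => by simp,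
    fun a => by simp⟩, ?_, ?_⟩
  · rintro ⟨c, y⟩
    rw [mul_inv_eq_iff_eq_mul, r2_mul_up]
    show _ = upHom (Multiplicative.ofAdd (c, y - c • v)) * _
    rw [up_mul_r2, add_sub_cancel]
  · rintro ⟨c, y⟩
    rfl

theorem nn_zero (m : ℕ) (χ : GG (m + 1) F → ℂ) (α : AddChar F ℂ) :
    nn χ α 0 = wt xGL (hc ulHom 0 (jHom m) χ) α := by
  unfold nn wt hc
  simp only [Fintype.sum_prod_type, ul_mul_j, AddChar.zero_apply, map_one, mul_one,
    Fintype.card_prod, Nat.cast_mul]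
  rw [Finset.mul_sum, Finset.mul_sum]
  apply Finset.sum_congr rfl
  intro c _
  simp only [Finset.sum_mul, Finset.mul_sum]
  apply Finset.sum_congr rfl
  intro y₀ _
  apply Finset.sum_congr rfl
  intro y₁ _
  rw [mul_inv, mul_inv, sq, mul_inv]
  ring

theorem j_norm (m : ℕ) (γ : GL (Fin 2) F) :
    ∃ σ : ((Fin (m + 1) → F) × (Fin (m + 1) → F)) ≃ ((Fin (m + 1) → F) × (Fin (m + 1) → F)),
      (∀ a, jHom m γ * ulHom (Multiplicative.ofAdd a) * (jHom m γ)⁻¹ =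
        ulHom (Multiplicative.ofAdd (σ a))) ∧
      ∀ a, (0 : AddChar ((Fin (m + 1) → F) × (Fin (m + 1) → F)) ℂ) (σ a) =
        (0 : AddChar ((Fin (m + 1) → F) × (Fin (m + 1) → F)) ℂ) a := by
  set D : GL (Fin (m + 1)) F := dgl m (Matrix.GeneralLinearGroup.det γ)⁻¹ with hD
  have a1 : ((γ⁻¹ : GL (Fin 2) F) : Matrix (Fin 2) (Fin 2) F) * (γ : Matrix (Fin 2) (Fin 2) F) = 1 := by
    rw [← Matrix.GeneralLinearGroup.coe_mul, inv_mul_cancel]; rfl
  have a2 : (γ : Matrix (Fin 2) (Fin 2) F) * ((γ⁻¹ : GL (Fin 2) F) : Matrix (Fin 2) (Fin 2) F) = 1 := by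
    rw [← Matrix.GeneralLinearGroup.coe_mul, mul_inv_cancel]; rfl
  have d1 : ((D⁻¹ : GL (Fin (m + 1)) F) : Matrix (Fin (m + 1)) (Fin (m + 1)) F) *
      (D : Matrix (Fin (m + 1)) (Fin (m + 1)) F) = 1 := by
    rw [← Matrix.GeneralLinearGroup.coe_mul, inv_mul_cancel]; rfl
  have d2 : (D : Matrix (Fin (m + 1)) (Fin (m + 1)) F) *
      ((D⁻¹ : GL (Fin (m + 1)) F) : Matrix (Fin (m + 1)) (Fin (m + 1)) F) = 1 := by
    rw [← Matrix.GeneralLinearGroup.coe_mul, mul_inv_cancel]; rfl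
  let f : Matrix (Fin 2) (Fin (m + 1)) F → Matrix (Fin 2) (Fin (m + 1)) F := fun X =>
    (γ : Matrix (Fin 2) (Fin 2) F) * X * ((D⁻¹ : GL (Fin (m + 1)) F) : Matrix (Fin (m + 1)) (Fin (m + 1)) F)
  let f' : Matrix (Fin 2) (Fin (m + 1)) F → Matrix (Fin 2) (Fin (m + 1)) F := fun X =>
    ((γ⁻¹ : GL (Fin 2) F) : Matrix (Fin 2) (Fin 2) F) * X * (D : Matrix (Fin (m + 1)) (Fin (m + 1)) F)
  have hff' : ∀ X, f (f' X) = X := by
    intro X
    show (γ : Matrix (Fin 2) (Fin 2) F) * (((γ⁻¹ : GL (Fin 2) F) : Matrix (Fin 2) (Fin 2) F) * X *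
      (D : Matrix (Fin (m + 1)) (Fin (m + 1)) F)) * _ = X
    rw [Matrix.mul_assoc, Matrix.mul_assoc, d2, Matrix.mul_one, ← Matrix.mul_assoc, a2, Matrix.one_mul]
  have hf'f : ∀ X, f' (f X) = X := by
    intro X
    show ((γ⁻¹ : GL (Fin 2) F) : Matrix (Fin 2) (Fin 2) F) * ((γ : Matrix (Fin 2) (Fin 2) F) * X *
      ((D⁻¹ : GL (Fin (m + 1)) F) : Matrix (Fin (m + 1)) (Fin (m + 1)) F)) * _ = X
    rw [Matrix.mul_assoc, Matrix.mul_assoc, d1, Matrix.mul_one, ← Matrix.mul_assoc, a1, Matrix.one_mul]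
  refine ⟨⟨fun a => (f (rows a.1 a.2) 0, f (rows a.1 a.2) 1),
    fun a => (f' (rows a.1 a.2) 0, f' (rows a.1 a.2) 1), ?_, ?_⟩, ?_, ?_⟩
  · rintro ⟨y₀, y₁⟩
    simp only [rows_eta, hf'f]
    rfl
  · rintro ⟨y₀, y₁⟩
    simp only [rows_eta, hff']
    rfl
  · rintro ⟨y₀, y₁⟩
    rw [mul_inv_eq_iff_eq_mul]
    show _ = ulHom (Multiplicative.ofAdd (f (rows y₀ y₁) 0, f (rows y₀ y₁) 1)) * _
    rw [ulHom_apply, ulHom_apply, rows_eta, jHom_apply]
    unfold uK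
    rw [lev_conj]
    congr 1
    apply pel_congr
    · rw [tt_zero, Matrix.mul_one, a2]
    · rfl
    · rfl
  · intro a
    rfl

end nnhc

end Cfsg.Agent.Lib.Helper15SLnnhc
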