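import Mathlib
import Cfsg.Agent.Lib.Helper44SLDefs
import Cfsg.Agent.Lib.Helper98MinDefs

set_option autoImplicit false

namespace Cfsg.Agent.Lib.Helper15SLnnoff

open Matrix Cfsg Cfsg.Agent.Lib.Helper44Wt Cfsg.Agent.Lib.Helper44SLDefs
  Cfsg.Agent.Lib.Helper44P1 Cfsg.Agent.Lib.Helper44GL2

variable {F : Type*} [Field F] {k : ℕ}

theorem rows_mul (y₀ y₁ : Fin k → F) (P : Matrix (Fin k) (Fin k) F) :
    rows y₀ y₁ * P = rows (y₀ ᵥ* P) (y₁ ᵥ* P) := by
  ext i j
  fin_cases i <;> simp [rows, Matrix.mul_apply, Matrix.vecMul, dotProduct]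

theorem det_smul_one_two (a : F) : (a • (1 : Matrix (Fin 2) (Fin 2) F)).det = a ^ 2 := by
  rw [Matrix.det_smul, Matrix.det_one, mul_one, Fintype.card_fin]

theorem pel_conj (a : F) (D D' : Matrix (Fin k) (Fin k) F) (hD : D' * D = 1)
    (h : (a • (1 : Matrix (Fin 2) (Fin 2) F)).det * D.det = 1) (c : F) (X : Matrix (Fin 2) (Fin k) F) :
    pel (a • 1) 0 D h * uK c X = uK c (X * (a • D')) * pel (a • 1) 0 D h := by
  unfold uK
  rw [pel_mul, pel_mul]
  apply pel_congr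
  · simp
  · rw [Matrix.zero_mul, add_zero, Matrix.mul_zero, zero_add, Matrix.mul_smul, Matrix.smul_mul,
      Matrix.smul_mul, Matrix.mul_assoc, hD, Matrix.mul_one, Matrix.one_mul]
  · rw [Matrix.mul_one, Matrix.one_mul]

theorem chi_inv (χ : GG k F → ℂ) (hχ : IsClassFunction (GG k F) χ) (a : F)
    (D D' : Matrix (Fin k) (Fin k) F) (hD : D' * D = 1) (h : a ^ 2 * D.det = 1) (c : F)
    (X : Matrix (Fin 2) (Fin k) F) : χ (uK c (X * (a • D'))) = χ (uK c X) := by
  have h' : (a • (1 : Matrix (Fin 2) (Fin 2) F)).det * D.det = 1 := by rw [det_smul_one_two, h]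
  have e := pel_conj a D D' hD h' c X
  have e2 : uK c (X * (a • D')) = pel (a • 1) 0 D h' * uK c X * (pel (a • 1) 0 D h')⁻¹ := by
    rw [e, mul_inv_cancel_right]
  rw [e2, hχ]

variable [Fintype F]

theorem nn_P (χ : GG k F → ℂ) (α : AddChar F ℂ) (β β' : AddChar (Fin k → F) ℂ)
    (P P' : Matrix (Fin k) (Fin k) F) (h1 : P * P' = 1) (h2 : P' * P = 1)
    (hχ : ∀ (c : F) (X : Matrix (Fin 2) (Fin k) F), χ (uK c (X * P)) = χ (uK c X))
    (hβ : ∀ y, β' y = β (y ᵥ* P)) : nn χ α β' = nn χ α β := by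
  let Φ : (Fin k → F) ≃ (Fin k → F) :=
    ⟨fun y => y ᵥ* P, fun y => y ᵥ* P', fun y => by simp [Matrix.vecMul_vecMul, h1],
      fun y => by simp [Matrix.vecMul_vecMul, h2]⟩
  unfold nn
  congr 1
  apply Finset.sum_congr rfl
  intro c _
  rw [← Equiv.sum_comp Φ (fun y₀ => ∑ y₁ : Fin k → F,
    χ (uK c (rows y₀ y₁)) * (starRingEnd ℂ) (α c) * (starRingEnd ℂ) (β y₁))]
  apply Finset.sum_congr rfl
  intro y₀ _
  rw [← Equiv.sum_comp Φ (fun y₁ =>
    χ (uK c (rows (Φ y₀) y₁)) * (starRingEnd ℂ) (α c) * (starRingEnd ℂ) (β y₁))]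
  apply Finset.sum_congr rfl
  intro y₁ _
  have e : rows (Φ y₀) (Φ y₁) = rows y₀ y₁ * P := (rows_mul y₀ y₁ P).symm
  rw [e, hχ, hβ]
  rfl

/-- the character `y ↦ β (y P)` -/
noncomputable def compP (β : AddChar (Fin k → F) ℂ) (P : Matrix (Fin k) (Fin k) F) :
    AddChar (Fin k → F) ℂ :=
  β.compAddMonoidHom (Matrix.vecMulLinear P).toAddMonoidHom

theorem compP_apply (β : AddChar (Fin k → F) ℂ) (P : Matrix (Fin k) (Fin k) F) (y : Fin k → F) :
    compP β P y = β (y ᵥ* P) := rfl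

theorem zero_of_pair (χ : GG k F → ℂ) (hnat : ∀ α β, ∃ n : ℕ, nn χ α β = n)
    (α : AddChar F ℂ) (hα : ∑ β : AddChar (Fin k → F) ℂ, nn χ α β = 1)
    (β β' : AddChar (Fin k → F) ℂ) (hne : β' ≠ β) (he : nn χ α β' = nn χ α β) : nn χ α β = 0 := by
  classical
  choose f hf using hnat α
  have hs : ∑ b : AddChar (Fin k → F) ℂ, f b = 1 := by
    have : ((∑ b : AddChar (Fin k → F) ℂ, f b : ℕ) : ℂ) = 1 := by
      rw [Nat.cast_sum, ← hα]
      exact Finset.sum_congr rfl (fun b _ => (hf b).symm)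
    exact_mod_cast this
  have h2 : f β' + f β ≤ 1 := by
    rw [← hs, ← Finset.sum_pair hne]
    exact Finset.sum_le_sum_of_subset (Finset.subset_univ _)
  have h3 : f β' = f β := by
    have : (f β' : ℂ) = f β := by rw [← hf, ← hf, he]
    exact_mod_cast this
  have h4 : f β = 0 := by omega
  rw [hf, h4, Nat.cast_zero]

theorem addChar_ne_zero' (β : AddChar (Fin k → F) ℂ) (y : Fin k → F) : β y ≠ 0 := by
  intro h
  have : β (y + -y) = 1 := by rw [add_neg_cancel, AddChar.map_zero_eq_one]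
  rw [AddChar.map_add_eq_mul, h, zero_mul] at this
  exact zero_ne_one this

theorem nn_off (k : ℕ) (hk : 1 ≤ k) (hex3 : k = 1 → ∃ t : F, t ≠ 0 ∧ t ^ 3 ≠ 1) (χ : GG k F → ℂ)
    (hχ : IsClassFunction (GG k F) χ) (hnat : ∀ α β, ∃ n : ℕ, nn χ α β = n)
    (α : AddChar F ℂ) (hα : ∑ β : AddChar (Fin k → F) ℂ, nn χ α β = 1)
    (β : AddChar (Fin k → F) ℂ) (hβ : β ≠ 0) : nn χ α β = 0 := by
  classical
  by_cases hk1 : k = 1
  · obtain ⟨t, ht0, ht3⟩ := hex3 hk1
    -- `a = t`, `D = t⁻² `, `P = t³`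
    have ht2 : (t ^ 2) ≠ 0 := pow_ne_zero _ ht0
    have hP : t • ((t ^ 2) • (1 : Matrix (Fin k) (Fin k) F)) = (t ^ 3) • 1 := by
      rw [smul_smul]; congr 1; ring
    have hinv : ∀ (c : F) (X : Matrix (Fin 2) (Fin k) F),
        χ (uK c (X * ((t ^ 3) • (1 : Matrix (Fin k) (Fin k) F)))) = χ (uK c X) := by
      intro c X
      rw [← hP]
      refine chi_inv χ hχ t ((t ^ 2)⁻¹ • 1) ((t ^ 2) • 1) ?_ ?_ c X
      · rw [Matrix.smul_mul, Matrix.mul_smul, Matrix.one_mul, smul_smul, mul_inv_cancel₀ ht2, one_smul]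
      · rw [Matrix.det_smul, Matrix.det_one, mul_one, Fintype.card_fin, hk1, pow_one,
          mul_inv_cancel₀ ht2]
    have ht3' : (t ^ 3) ≠ 0 := pow_ne_zero _ ht0
    refine zero_of_pair χ hnat α hα β (compP β ((t ^ 3) • 1)) ?_
      (nn_P χ α β _ ((t ^ 3) • 1) ((t ^ 3)⁻¹ • 1) ?_ ?_ hinv (compP_apply β _))
    · intro he
      apply hβ
      rw [AddChar.eq_zero_iff]
      intro z
      have hs : t ^ 3 - 1 ≠ 0 := sub_ne_zero.2 ht3
      have h1 := DFunLike.congr_fun he ((t ^ 3 - 1)⁻¹ • z)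
      rw [compP_apply, Matrix.vecMul_smul, Matrix.vecMul_one] at h1
      have h2 : t ^ 3 • (t ^ 3 - 1)⁻¹ • z = z + (t ^ 3 - 1)⁻¹ • z := by
        rw [smul_smul]
        have : t ^ 3 * (t ^ 3 - 1)⁻¹ = 1 + (t ^ 3 - 1)⁻¹ := by
          field_simp
          ring
        rw [this, add_smul, one_smul]
      rw [h2, AddChar.map_add_eq_mul] at h1
      exact mul_right_cancel₀ (addChar_ne_zero' β _) (h1.trans (one_mul _).symm)
    · rw [Matrix.smul_mul, Matrix.mul_smul, Matrix.one_mul, smul_smul, mul_inv_cancel₀ ht3', one_smul]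
    · rw [Matrix.smul_mul, Matrix.mul_smul, Matrix.one_mul, smul_smul, inv_mul_cancel₀ ht3', one_smul]
  · have hk2 : 2 ≤ k := by omega
    obtain ⟨η, hη⟩ := (AddChar.ne_zero_iff).1 hβ
    -- a nonzero vector orthogonal to `η`
    obtain ⟨u, hu0, huη⟩ : ∃ u : Fin k → F, u ≠ 0 ∧ η ⬝ᵥ u = 0 := by
      by_contra hcon
      have hbot : Cfsg.Agent.Lib.Helper98MinDefs.perp (Submodule.span F {η}) = ⊥ := by
        rw [eq_bot_iff]
        intro u hu
        rw [Submodule.mem_bot]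
        by_contra hu0
        exact hcon ⟨u, hu0, hu η (Submodule.mem_span_singleton_self η)⟩
      have h1 := Cfsg.Agent.Lib.Helper98MinDefs.finrank_perp (Submodule.span F {η})
      rw [hbot, finrank_bot, zero_add, Fintype.card_fin] at h1
      have h2 : Module.finrank F (Submodule.span F {η}) ≤ 1 := by
        have := finrank_span_le_card (R := F) ({η} : Set (Fin k → F))
        simpa using this
      omega
    obtain ⟨i, hi⟩ : ∃ i, u i ≠ 0 := by
      by_contra hcon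
      exact hu0 (funext fun i => by
        by_contra h
        exact hcon ⟨i, h⟩)
    set E := Cfsg.Agent.Lib.Helper98MinDefs.T u η with hE
    have hinv : ∀ (c : F) (X : Matrix (Fin 2) (Fin k) F),
        χ (uK c (X * (E : Matrix (Fin k) (Fin k) F))) = χ (uK c X) := by
      intro c X
      have := chi_inv χ hχ 1 ((E⁻¹ : SpecialLinearGroup (Fin k) F) : Matrix (Fin k) (Fin k) F)
        (E : Matrix (Fin k) (Fin k) F) (Cfsg.Agent.Lib.Helper98MinDefs.coe_mul_inv E)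
        (by rw [one_pow, one_mul]; exact (E⁻¹).2) c X
      rwa [one_smul] at this
    refine zero_of_pair χ hnat α hα β (compP β (E : Matrix (Fin k) (Fin k) F)) ?_
      (nn_P χ α β _ (E : Matrix (Fin k) (Fin k) F)
        ((E⁻¹ : SpecialLinearGroup (Fin k) F) : Matrix (Fin k) (Fin k) F)
        (Cfsg.Agent.Lib.Helper98MinDefs.coe_mul_inv E) (Cfsg.Agent.Lib.Helper98MinDefs.coe_inv_mul E)
        hinv (compP_apply β _))
    intro he
    apply hη
    have h1 := DFunLike.congr_fun he (Pi.single i (u i)⁻¹)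
    rw [compP_apply, hE, Cfsg.Agent.Lib.Helper98MinDefs.vecMul_T huη, single_dotProduct,
      inv_mul_cancel₀ hi, one_smul, AddChar.map_add_eq_mul] at h1
    exact mul_left_cancel₀ (addChar_ne_zero' β _) (h1.trans (mul_one _).symm)

end Cfsg.Agent.Lib.Helper15SLnnoff
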