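import Mathlib.GroupTheory.Sylow
import Mathlib.GroupTheory.Index
import Mathlib.GroupTheory.Subgroup.Centralizer

set_option autoImplicit false

namespace Cfsg.Agent.Lib.Helper16Sylow

open Subgroup

variable {G : Type*} [Group G]

/-- The conjugate `g H g⁻¹`. -/
abbrev cj (g : G) (H : Subgroup G) : Subgroup G := H.map (MulAut.conj g).toMonoidHom

theorem mem_cj {g x : G} {H : Subgroup G} : x ∈ cj g H ↔ g⁻¹ * x * g ∈ H := by
  constructor
  · rintro ⟨y, hy, rfl⟩
    have : g⁻¹ * ((MulAut.conj g).toMonoidHom y) * g = y := by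
      simp [MulAut.conj_apply, mul_assoc]
    rw [this]; exact hy
  · intro h
    refine ⟨g⁻¹ * x * g, h, ?_⟩
    simp [MulAut.conj_apply, mul_assoc]

theorem conj_mem_cj {g x : G} {H : Subgroup G} (hx : x ∈ H) : g * x * g⁻¹ ∈ cj g H :=
  ⟨x, hx, by simp [MulAut.conj_apply]⟩

theorem conj_mem_cj_iff {g x : G} {H : Subgroup G} : g * x * g⁻¹ ∈ cj g H ↔ x ∈ H := by
  rw [mem_cj]
  have : g⁻¹ * (g * x * g⁻¹) * g = x := by group
  rw [this]

theorem cj_one (H : Subgroup G) : cj 1 H = H := by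
  ext x; rw [mem_cj]; simp

theorem cj_mul (a b : G) (H : Subgroup G) : cj (a * b) H = cj a (cj b H) := by
  ext x; rw [mem_cj, mem_cj, mem_cj]
  have : (a * b)⁻¹ * x * (a * b) = b⁻¹ * (a⁻¹ * x * a) * b := by group
  rw [this]

theorem cj_inv_cj (a : G) (H : Subgroup G) : cj a⁻¹ (cj a H) = H := by
  rw [← cj_mul, inv_mul_cancel, cj_one]

theorem cj_cj_inv (a : G) (H : Subgroup G) : cj a (cj a⁻¹ H) = H := by
  rw [← cj_mul, mul_inv_cancel, cj_one]

theorem cj_mono {g : G} {H K : Subgroup G} (h : H ≤ K) : cj g H ≤ cj g K := Subgroup.map_mono h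

theorem cj_le_iff {g : G} {H K : Subgroup G} : cj g H ≤ K ↔ H ≤ cj g⁻¹ K := by
  constructor
  · intro h
    have := cj_mono (g := g⁻¹) h
    rwa [cj_inv_cj] at this
  · intro h
    have := cj_mono (g := g) h
    rwa [cj_cj_inv] at this

theorem cj_le_cj_iff {g : G} {H K : Subgroup G} : cj g H ≤ cj g K ↔ H ≤ K := by
  rw [cj_le_iff, cj_inv_cj]

theorem cj_inf (g : G) (H K : Subgroup G) : cj g (H ⊓ K) = cj g H ⊓ cj g K := by
  ext x; simp only [mem_cj, Subgroup.mem_inf]

theorem cj_injective (g : G) : Function.Injective (cj g : Subgroup G → Subgroup G) := by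
  intro H K h
  have := congrArg (cj g⁻¹) h
  rwa [cj_inv_cj, cj_inv_cj] at this

theorem cj_eq_self_of_mem {g : G} {H : Subgroup G} (hg : g ∈ H) : cj g H = H := by
  ext x; rw [mem_cj]
  constructor
  · intro h
    have := H.mul_mem (H.mul_mem hg h) (H.inv_mem hg)
    have e : g * (g⁻¹ * x * g) * g⁻¹ = x := by group
    rwa [e] at this
  · intro h
    exact H.mul_mem (H.mul_mem (H.inv_mem hg) h) hg

theorem mem_normalizer_iff_cj {g : G} {H : Subgroup G} :
    g ∈ Subgroup.normalizer (H : Set G) ↔ cj g H = H := by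
  constructor
  · intro hg
    ext x
    rw [mem_cj]
    have hg' := Subgroup.inv_mem _ hg
    rw [Subgroup.mem_normalizer_iff] at hg'
    have := hg' x
    rw [inv_inv] at this
    exact this.symm
  · intro h
    rw [Subgroup.mem_normalizer_iff]
    intro x
    rw [← conj_mem_cj_iff (g := g) (x := x) (H := H), h]

theorem normalizer_cj (g : G) (H : Subgroup G) :
    Subgroup.normalizer ((cj g H : Subgroup G) : Set G) = cj g (Subgroup.normalizer (H : Set G)) := by
  ext x
  rw [mem_cj, mem_normalizer_iff_cj, mem_normalizer_iff_cj, cj_mul, cj_mul]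
  constructor
  · intro h
    rw [h, cj_inv_cj]
  · intro h
    have := congrArg (cj g) h
    rwa [cj_cj_inv] at this

theorem centralizer_cj (g : G) (H : Subgroup G) :
    Subgroup.centralizer ((cj g H : Subgroup G) : Set G) = cj g (Subgroup.centralizer (H : Set G)) := by
  ext x
  rw [mem_cj, Subgroup.mem_centralizer_iff, Subgroup.mem_centralizer_iff]
  constructor
  · intro h y hy
    have := h (g * y * g⁻¹) (conj_mem_cj hy)
    have e1 : y * (g⁻¹ * x * g) = g⁻¹ * (g * y * g⁻¹ * x) * g := by group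
    have e2 : g⁻¹ * x * g * y = g⁻¹ * (x * (g * y * g⁻¹)) * g := by group
    rw [e1, e2, this]
  · intro h y hy
    have hy' : g⁻¹ * y * g ∈ H := mem_cj.mp hy
    have := h _ hy'
    have e1 : y * x = g * (g⁻¹ * y * g * (g⁻¹ * x * g)) * g⁻¹ := by group
    have e2 : x * y = g * (g⁻¹ * x * g * (g⁻¹ * y * g)) * g⁻¹ := by group
    rw [e1, e2, this]

theorem isPGroup_cj {p : ℕ} {H : Subgroup G} (h : IsPGroup p H) (g : G) : IsPGroup p (cj g H) :=
  h.map _

theorem card_cj (g : G) (H : Subgroup G) : Nat.card (cj g H) = Nat.card H :=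
  Subgroup.card_map_of_injective (MulAut.conj g).injective

theorem relIndex_cj (g : G) (H K : Subgroup G) : (cj g H).relIndex (cj g K) = H.relIndex K :=
  Subgroup.relIndex_map_map_of_injective H K (MulAut.conj g).injective

theorem cj_eq_of_le [Finite G] {g : G} {H : Subgroup G} (h : cj g H ≤ H) : cj g H = H := by
  apply Subgroup.eq_of_le_of_card_ge h
  rw [card_cj]

theorem sylow_smul_eq_cj {p : ℕ} (g : G) (P : Sylow p G) : ((g • P : Sylow p G) : Subgroup G) = cj g P := by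
  ext x
  rw [Sylow.coe_subgroup_smul, Subgroup.mem_pointwise_smul_iff_inv_smul_mem, mem_cj]
  simp [MulAut.smul_def, ← map_inv, MulAut.conj_apply]

/-- `T` is a Sylow `p`-subgroup of the subgroup `H`. -/
def IsSylowIn (p : ℕ) (T H : Subgroup G) : Prop := T ≤ H ∧ IsPGroup p T ∧ ¬ p ∣ T.relIndex H

theorem isSylowIn_top {p : ℕ} [Fact p.Prime] [Finite G] (P : Sylow p G) : IsSylowIn p (P : Subgroup G) ⊤ :=
  ⟨le_top, P.2, by rw [Subgroup.relIndex_top_right]; exact P.not_dvd_index⟩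

theorem isSylowIn_of_le {p : ℕ} [Fact p.Prime] [Finite G] (P : Sylow p G) {H : Subgroup G}
    (h : (P : Subgroup G) ≤ H) : IsSylowIn p (P : Subgroup G) H :=
  ⟨h, P.2, fun hd => P.not_dvd_index (hd.trans (Subgroup.relIndex_dvd_index_of_le h))⟩

theorem IsSylowIn.cj {p : ℕ} {T H : Subgroup G} (h : IsSylowIn p T H) (g : G) :
    IsSylowIn p (cj g T) (cj g H) :=
  ⟨cj_mono h.1, isPGroup_cj h.2.1 g, by rw [relIndex_cj]; exact h.2.2⟩

/-- The Sylow subgroup of `↥H` attached to a relative Sylow subgroup. -/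
noncomputable def IsSylowIn.toSylow {p : ℕ} [Fact p.Prime] {T H : Subgroup G} (h : IsSylowIn p T H) : Sylow p H :=
  IsPGroup.toSylow (P := T.subgroupOf H) (h.2.1.comap_subtype) h.2.2

theorem IsSylowIn.coe_toSylow {p : ℕ} [Fact p.Prime] {T H : Subgroup G} (h : IsSylowIn p T H) :
    (h.toSylow : Subgroup H) = T.subgroupOf H := rfl

theorem isSylowIn_of_sylow {p : ℕ} [Fact p.Prime] [Finite G] {H : Subgroup G} (Q : Sylow p H) :
    IsSylowIn p ((Q : Subgroup H).map H.subtype) H := by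
  refine ⟨Subgroup.map_subtype_le _, Q.2.map _, ?_⟩
  have : ((Q : Subgroup H).map H.subtype).relIndex H = (Q : Subgroup H).index := by
    rw [Subgroup.relIndex, Subgroup.subgroupOf, Subgroup.comap_map_eq_self_of_injective H.subtype_injective]
  rw [this]
  exact Q.not_dvd_index

/-- Sylow's theorem inside a subgroup. -/
theorem IsSylowIn.exists_conj_le {p : ℕ} [Fact p.Prime] [Finite G] {T H Q : Subgroup G} (h : IsSylowIn p T H)
    (hQ : IsPGroup p Q) (hQH : Q ≤ H) : ∃ x ∈ H, Helper16Sylow.cj x Q ≤ T := by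
  obtain ⟨R, hR⟩ := (hQ.comap_subtype (H := Q) (K := H)).exists_le_sylow
  obtain ⟨x, hx⟩ := MulAction.exists_smul_eq H R h.toSylow
  refine ⟨x, x.2, ?_⟩
  intro y hy
  rw [mem_cj] at hy
  have h1 : (⟨(x : G)⁻¹ * y * x, hQH hy⟩ : H) ∈ (R : Subgroup H) := hR (by
    rw [Subgroup.mem_comap]; exact hy)
  have h2 : x * (⟨(x : G)⁻¹ * y * x, hQH hy⟩ : H) * x⁻¹ ∈ ((x • R : Sylow p H) : Subgroup H) := by
    rw [sylow_smul_eq_cj]; exact conj_mem_cj h1
  rw [hx, h.coe_toSylow, Subgroup.mem_subgroupOf] at h2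
  have e : ((x * (⟨(x : G)⁻¹ * y * x, hQH hy⟩ : H) * x⁻¹ : H) : G) = y := by
    simp only [Subgroup.coe_mul, Subgroup.coe_inv]; group
  rwa [e] at h2

theorem IsSylowIn.card_eq {p : ℕ} [Fact p.Prime] [Finite G] {T H : Subgroup G} (h : IsSylowIn p T H) :
    Nat.card T = p ^ (Nat.card H).factorization p := by
  have := h.toSylow.card_eq_multiplicity
  rw [← this]
  have e : (h.toSylow : Subgroup H) = T.subgroupOf H := rfl
  rw [e]
  exact (Nat.card_congr (Subgroup.subgroupOfEquivOfLe h.1).toEquiv).symm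

theorem isSylowIn_of_card {p : ℕ} [Fact p.Prime] [Finite G] {T H : Subgroup G} (hTH : T ≤ H)
    (hc : Nat.card T = p ^ (Nat.card H).factorization p) : IsSylowIn p T H := by
  refine ⟨hTH, IsPGroup.of_card hc, ?_⟩
  intro hd
  have h1 : Nat.card T * T.relIndex H = Nat.card H := by
    rw [← Subgroup.relIndex_bot_left, ← Subgroup.relIndex_bot_left]
    exact Subgroup.relIndex_mul_relIndex ⊥ T H bot_le hTH
  have h2 : p ^ ((Nat.card H).factorization p + 1) ∣ Nat.card H := by
    rw [pow_succ, ← hc]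
    conv_rhs => rw [← h1]
    exact Nat.mul_dvd_mul_left _ hd
  exact Nat.pow_succ_factorization_not_dvd Nat.card_pos.ne' Fact.out h2

/-- Two relative Sylow subgroups are conjugate. -/
theorem IsSylowIn.exists_conj_eq {p : ℕ} [Fact p.Prime] [Finite G] {T T' H : Subgroup G} (h : IsSylowIn p T H)
    (h' : IsSylowIn p T' H) : ∃ x ∈ H, Helper16Sylow.cj x T' = T := by
  obtain ⟨x, hx, hle⟩ := h.exists_conj_le h'.2.1 h'.1
  refine ⟨x, hx, Subgroup.eq_of_le_of_card_ge hle ?_⟩
  rw [card_cj, h.card_eq, h'.card_eq]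

/-- A `p`-subgroup containing a relative Sylow subgroup equals it. -/
theorem IsSylowIn.eq_of_le {p : ℕ} [Fact p.Prime] [Finite G] {T Q H : Subgroup G} (h : IsSylowIn p T H)
    (hQ : IsPGroup p Q) (hQH : Q ≤ H) (hTQ : T ≤ Q) : T = Q := by
  obtain ⟨x, _, hle⟩ := h.exists_conj_le hQ hQH
  apply Subgroup.eq_of_le_of_card_ge hTQ
  rw [← card_cj x Q]
  exact Subgroup.card_le_of_le hle

/-- Every `p`-subgroup of `H` lies in a relative Sylow subgroup of `H`. -/
theorem exists_isSylowIn_ge {p : ℕ} [Fact p.Prime] [Finite G] {Q H : Subgroup G}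
    (hQ : IsPGroup p Q) (hQH : Q ≤ H) : ∃ T, IsSylowIn p T H ∧ Q ≤ T := by
  obtain ⟨R, hR⟩ := (hQ.comap_subtype (H := Q) (K := H)).exists_le_sylow
  refine ⟨_, isSylowIn_of_sylow R, ?_⟩
  intro y hy
  exact ⟨⟨y, hQH hy⟩, hR (by rw [Subgroup.mem_comap]; exact hy), rfl⟩

/-- A relative Sylow subgroup of `H` contained in a smaller subgroup `K` is Sylow there. -/
theorem IsSylowIn.of_le {p : ℕ} {T H K : Subgroup G} (h : IsSylowIn p T H) (hTK : T ≤ K) (hKH : K ≤ H) :
    IsSylowIn p T K :=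
  ⟨hTK, h.2.1, fun hd => h.2.2 (by
    rw [← Subgroup.relIndex_mul_relIndex T K H hTK hKH]; exact Dvd.dvd.mul_right hd _)⟩

/-- Intersection of a relative Sylow subgroup with a subgroup normalized by `H`. -/
theorem IsSylowIn.inf_normal {p : ℕ} [Fact p.Prime] [Finite G] {T H K : Subgroup G} (h : IsSylowIn p T H)
    (hKH : K ≤ H) (hn : H ≤ Subgroup.normalizer (K : Set G)) : IsSylowIn p (T ⊓ K) K := by
  obtain ⟨R, hR, -⟩ := exists_isSylowIn_ge (p := p) (Q := (⊥ : Subgroup G)) (H := K) IsPGroup.of_bot bot_le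
  obtain ⟨x, hx, hle⟩ := h.exists_conj_le hR.2.1 (hR.1.trans hKH)
  have hxK : Helper16Sylow.cj x K = K := mem_normalizer_iff_cj.mp (hn hx)
  have h1 : IsSylowIn p (Helper16Sylow.cj x R) K := by
    have := hR.cj x
    rwa [hxK] at this
  have h2 : Helper16Sylow.cj x R ≤ T ⊓ K := le_inf hle h1.1
  have h3 := h1.eq_of_le (h.2.1.to_le inf_le_left) inf_le_right h2
  rw [← h3]; exact h1

end Cfsg.Agent.Lib.Helper16Sylow
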