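import Cfsg.Prelude
import Cfsg.Agent.Lib.Helper16TiA
import Mathlib

/-!
# Groups in which all centralisers of elements are T.I. sets: vocabulary and first consequences
-/

set_option autoImplicit false
set_option linter.unusedSectionVars false
set_option linter.unusedVariables false
set_option linter.style.haveILetI false

namespace Cfsg.Agent.Helper16Ti

/-- the hypothesis of S4064: every centraliser of an element is a T.I. set -/
def TIC (G : Type*) [Group G] : Prop :=
  ∀ x : G, Cfsg.IsTISubset (Subgroup.centralizer ({x} : Set G) : Set G)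

variable {G : Type*} [Group G]

theorem mem_cent {a x : G} : a ∈ Subgroup.centralizer ({x} : Set G) ↔ Commute a x :=
  Subgroup.mem_centralizer_singleton_iff

/-- if `1 ≠ x ∈ C(y)` then `C(x)` normalises `C(y)` -/
theorem TIC.norm (h : TIC G) {x y g : G} (hx : x ≠ 1) (hxy : Commute x y) (hg : Commute g x) :
    g ∈ Subgroup.normalizer ((Subgroup.centralizer ({y} : Set G) : Subgroup G) : Set G) := by
  by_contra hn
  apply hx
  apply h y g hn x (mem_cent.2 hxy)
  have : g * x * g⁻¹ = x := by rw [hg.eq, mul_inv_cancel_right]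
  rw [this]
  exact mem_cent.2 hxy

/-- a more flexible form: `g` normalises `C(y)` as soon as `1 ≠ x ∈ C(y)` and `g x g⁻¹ ∈ C(y)` -/
theorem TIC.norm' (h : TIC G) {x y g : G} (hx : x ≠ 1) (hxy : Commute x y)
    (hg : Commute (g * x * g⁻¹) y) :
    g ∈ Subgroup.normalizer ((Subgroup.centralizer ({y} : Set G) : Subgroup G) : Set G) := by
  by_contra hn
  exact hx (h y g hn x (mem_cent.2 hxy) (mem_cent.2 hg))

theorem conj_comm_of_mem_norm {y g a : G}
    (hg : g ∈ Subgroup.normalizer ((Subgroup.centralizer ({y} : Set G) : Subgroup G) : Set G))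
    (ha : Commute a y) : Commute (g * a * g⁻¹) y :=
  mem_cent.1 ((Subgroup.mem_normalizer_iff.1 hg a).1 (mem_cent.2 ha))

/-- in the centraliser of a non-identity element every element commutes with its conjugates -/
theorem TIC.engel (h : TIC G) {w a b : G} (hw : w ≠ 1) (ha : Commute a w) (hb : Commute b w) :
    Commute a (b * a * b⁻¹) :=
  (conj_comm_of_mem_norm (h.norm hw ha.symm hb) (Commute.refl a)).symm

/-- in the centraliser of a non-identity element, elements of coprime orders commute -/
theorem TIC.cop (h : TIC G) {w x y : G} (hw : w ≠ 1) (hx : Commute x w) (hy : Commute y w)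
    (hc : (orderOf x).Coprime (orderOf y)) : Commute x y := by
  have h1 : Commute y (x * y * x⁻¹) := h.engel hw hy hx
  have h2 : Commute x (y * x * y⁻¹) := h.engel hw hx hy
  set c : G := x * y * x⁻¹ * y⁻¹ with hcdef
  have hc1 : c ^ orderOf y = 1 := by
    rw [hcdef, (h1.symm.inv_right).mul_pow, conj_pow, pow_orderOf_eq_one, inv_pow,
      pow_orderOf_eq_one]
    simp
  have hc2 : c ^ orderOf x = 1 := by
    have : c = x * (y * x * y⁻¹)⁻¹ := by rw [hcdef]; group
    rw [this, (h2.inv_right).mul_pow, inv_pow, conj_pow, pow_orderOf_eq_one]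
    simp
  have hc3 : c = 1 := by
    have h3 := orderOf_dvd_of_pow_eq_one hc1
    have h4 := orderOf_dvd_of_pow_eq_one hc2
    have h5 : orderOf c ∣ 1 := by
      rw [← Nat.Coprime.gcd_eq_one hc]
      exact Nat.dvd_gcd h4 h3
    exact orderOf_eq_one_iff.1 (Nat.dvd_one.1 h5)
  have : x * y = c * (y * x) := by rw [hcdef]; group
  show x * y = y * x
  rw [this, hc3, one_mul]

end Cfsg.Agent.Helper16Ti
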