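import Cfsg.Agent.Lib.Helper43BPDefs
import Cfsg.Agent.Lib.Helper17BPCarmhom

set_option autoImplicit false
set_option linter.unusedSectionVars false

/-! PROJECT 43, piece `gluehom`. -/

namespace Cfsg.Agent.Lib.Helper17BPGluehom

open Cfsg.Agent.Lib.Helper43BP Cfsg.Agent.Lib.Helper17BPC3 Cfsg.Agent.Lib.Helper17BPCarmhom

variable {Ω : Type*} [Fintype Ω] [DecidableEq Ω] {P : Type*} [Group P]

theorem sq_comm {x y : P} (h : (x * y) ^ 2 = 1) : (y * x) ^ 2 = 1 := by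
  have : (y * x) ^ 2 = x⁻¹ * (x * y) ^ 2 * x := by
    rw [sq, sq]; group
  rw [this, h]
  group

/-- two homomorphisms on `altOn A` which agree on the `c3 a b i` are equal -/
theorem hom_eq_of_c3 (A : Set Ω) (a b : Ω) (hab : a ≠ b) (ha : a ∈ A) (hb : b ∈ A)
    (f g : ↥(altOn A) →* P)
    (h : ∀ i (hi : c3 a b i ∈ altOn A), i ∈ A → i ≠ a → i ≠ b → f ⟨_, hi⟩ = g ⟨_, hi⟩) :
    ∀ σ, f σ = g σ := by
  have key : ∀ σ : Equiv.Perm Ω, σ ∈ Subgroup.closure {g : Equiv.Perm Ω |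
      ∃ i ∈ A, i ≠ a ∧ i ≠ b ∧ g = c3 a b i} →
      ∃ hσ : σ ∈ altOn A, f ⟨σ, hσ⟩ = g ⟨σ, hσ⟩ := by
    intro σ hσ
    induction hσ using Subgroup.closure_induction with
    | mem σ hσ =>
      obtain ⟨i, hi, hia, hib, rfl⟩ := hσ
      exact ⟨c3_mem A a b i ha hb hi hab hib, h i _ hi hia hib⟩
    | one => exact ⟨Subgroup.one_mem _, (map_one f).trans (map_one g).symm⟩
    | mul σ τ _ _ h1 h2 =>
      obtain ⟨h1, h1'⟩ := h1
      obtain ⟨h2, h2'⟩ := h2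
      refine ⟨Subgroup.mul_mem _ h1 h2, ?_⟩
      have e : (⟨σ * τ, Subgroup.mul_mem _ h1 h2⟩ : ↥(altOn A)) = ⟨σ, h1⟩ * ⟨τ, h2⟩ := rfl
      rw [e, map_mul, map_mul, h1', h2']
    | inv σ _ h1 =>
      obtain ⟨h1, h1'⟩ := h1
      refine ⟨Subgroup.inv_mem _ h1, ?_⟩
      have e : (⟨σ⁻¹, Subgroup.inv_mem _ h1⟩ : ↥(altOn A)) = (⟨σ, h1⟩ : ↥(altOn A))⁻¹ := rfl
      rw [e, map_inv, map_inv, h1']
  intro σ
  have hσ : (σ : Equiv.Perm Ω) ∈ Subgroup.closure {g : Equiv.Perm Ω |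
      ∃ i ∈ A, i ≠ a ∧ i ≠ b ∧ g = c3 a b i} := by
    rw [Cfsg.Agent.Lib.Helper36BPGen.closure_c3 A a b hab ha hb]
    exact σ.2
  obtain ⟨_, h2⟩ := key σ hσ
  exact h2

theorem ext1_pow3 (A : Set Ω) (a b i : Ω) (hab : a ≠ b) (ha : a ∈ A) (hb : b ∈ A) (hi : i ∈ A)
    (hia : i ≠ a) (hib : i ≠ b) (θ : ↥(altOn A) →* P) : ext1 θ (c3 a b i) ^ 3 = 1 := by
  rw [ext1_apply θ (c3_mem A a b i ha hb hi hab hib), ← map_pow]
  have : (⟨c3 a b i, c3_mem A a b i ha hb hi hab hib⟩ : ↥(altOn A)) ^ 3 = 1 :=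
    Subtype.ext (c3_pow3 a b i hab hia hib)
  rw [this, map_one]

theorem ext1_mul_sq (A : Set Ω) (a b i j : Ω) (hab : a ≠ b) (ha : a ∈ A) (hb : b ∈ A) (hi : i ∈ A)
    (hj : j ∈ A) (hia : i ≠ a) (hib : i ≠ b) (hja : j ≠ a) (hjb : j ≠ b) (hij : i ≠ j)
    (θ : ↥(altOn A) →* P) : (ext1 θ (c3 a b i) * ext1 θ (c3 a b j)) ^ 2 = 1 := by
  rw [ext1_apply θ (c3_mem A a b i ha hb hi hab hib),
    ext1_apply θ (c3_mem A a b j ha hb hj hab hjb), ← map_mul, ← map_pow]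
  have : ((⟨c3 a b i, c3_mem A a b i ha hb hi hab hib⟩ : ↥(altOn A)) *
      ⟨c3 a b j, c3_mem A a b j ha hb hj hab hjb⟩) ^ 2 = 1 :=
    Subtype.ext (c3_mul_sq a b i j hab hia hib hja hjb hij)
  rw [this, map_one]

/-- piece `gluehom` -/
theorem glue_hom (A B : Set Ω) (hAB : A ∪ B = Set.univ) (a b : Ω) (hab : a ≠ b) (ha : a ∈ A ∩ B)
    (hb : b ∈ A ∩ B) (θA : ↥(altOn A) →* P) (θB : ↥(altOn B) →* P)
    (hid : ∀ i ∈ (A ∩ B) \ {a, b}, ext1 θA (c3 a b i) = ext1 θB (c3 a b i))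
    (hcr : ∀ i ∈ A \ B, ∀ j ∈ B \ A, (ext1 θA (c3 a b i) * ext1 θB (c3 a b j)) ^ 2 = 1) :
    ∃ φ : ↥(alternatingGroup Ω) →* P,
      (∀ g, φ (incl A g) = θA g) ∧ (∀ g, φ (incl B g) = θB g) := by
  classical
  set x : Ω → P := fun i => if i ∈ A then ext1 θA (c3 a b i) else ext1 θB (c3 a b i) with hx
  have hxA : ∀ i, i ∈ A → x i = ext1 θA (c3 a b i) := fun i hi => if_pos hi
  have hxB : ∀ i, i ∈ B → i ≠ a → i ≠ b → x i = ext1 θB (c3 a b i) := by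
    intro i hi hia hib
    by_cases hiA : i ∈ A
    · rw [hxA i hiA]
      apply hid i ⟨⟨hiA, hi⟩, ?_⟩
      simp [hia, hib]
    · exact if_neg hiA
  have hor : ∀ i, i ∈ A ∨ i ∈ B := by
    intro i
    have : i ∈ A ∪ B := by rw [hAB]; trivial
    exact this
  have h3 : ∀ i, i ≠ a → i ≠ b → x i ^ 3 = 1 := by
    intro i hia hib
    rcases hor i with hi | hi
    · rw [hxA i hi]
      exact ext1_pow3 A a b i hab ha.1 hb.1 hi hia hib θA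
    · rw [hxB i hi hia hib]
      exact ext1_pow3 B a b i hab ha.2 hb.2 hi hia hib θB
  have h2 : ∀ i j, i ≠ a → i ≠ b → j ≠ a → j ≠ b → i ≠ j → (x i * x j) ^ 2 = 1 := by
    intro i j hia hib hja hjb hij
    by_cases hiA : i ∈ A
    · by_cases hjA : j ∈ A
      · rw [hxA i hiA, hxA j hjA]
        exact ext1_mul_sq A a b i j hab ha.1 hb.1 hiA hjA hia hib hja hjb hij θA
      · have hjB : j ∈ B := (hor j).resolve_left hjA
        by_cases hiB : i ∈ B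
        · rw [hxB i hiB hia hib, hxB j hjB hja hjb]
          exact ext1_mul_sq B a b i j hab ha.2 hb.2 hiB hjB hia hib hja hjb hij θB
        · rw [hxA i hiA, hxB j hjB hja hjb]
          exact hcr i ⟨hiA, hiB⟩ j ⟨hjB, hjA⟩
    · have hiB : i ∈ B := (hor i).resolve_left hiA
      by_cases hjB : j ∈ B
      · rw [hxB i hiB hia hib, hxB j hjB hja hjb]
        exact ext1_mul_sq B a b i j hab ha.2 hb.2 hiB hjB hia hib hja hjb hij θB
      · have hjA : j ∈ A := (hor j).resolve_right hjB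
        rw [hxB i hiB hia hib, hxA j hjA]
        exact sq_comm (hcr j ⟨hjA, hjB⟩ i ⟨hiB, hiA⟩)
  obtain ⟨φ, hφ⟩ := carm_hom a b hab x h3 h2
  refine ⟨φ, ?_, ?_⟩
  · apply hom_eq_of_c3 A a b hab ha.1 hb.1 (φ.comp (incl A)) θA
    intro i hi hiA hia hib
    have : (φ.comp (incl A)) ⟨c3 a b i, hi⟩ = φ ⟨c3 a b i, altOn_le A hi⟩ := rfl
    rw [this, hφ i _ hia hib, hxA i hiA, ext1_apply θA hi]
  · apply hom_eq_of_c3 B a b hab ha.2 hb.2 (φ.comp (incl B)) θB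
    intro i hi hiB hia hib
    have : (φ.comp (incl B)) ⟨c3 a b i, hi⟩ = φ ⟨c3 a b i, altOn_le B hi⟩ := rfl
    rw [this, hφ i _ hia hib, hxB i hiB hia hib, ext1_apply θB hi]

end Cfsg.Agent.Lib.Helper17BPGluehom
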