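import Mathlib
import Cfsg.Prelude.Def_ClassicalGeometry

set_option autoImplicit false
open Cfsg

namespace Cfsg.Agent.Lib.Helper17Orth

open Matrix QuadraticMap

theorem mat_ext_mulVec {ι : Type*} [Fintype ι] [DecidableEq ι] {F : Type*} [CommRing F]
    (M N : Matrix ι ι F) (h : ∀ x, M *ᵥ x = N *ᵥ x) : M = N := by
  ext i j
  have := congrFun (h (Pi.single j 1)) i
  simpa using this

section CommRing

variable {ι : Type} [Fintype ι] [DecidableEq ι] {F : Type*} [CommRing F]

theorem polarVec_dotProduct (Q : QuadraticForm F (ι → F)) (v x : ι → F) :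
    polarVec (⇑Q) v ⬝ᵥ x = polar (⇑Q) v x := by
  have h := LinearMap.pi_apply_eq_sum_univ (polarBilin Q v) x
  simp only [polarBilin_apply_apply] at h
  rw [h]
  simp only [dotProduct, polarVec, smul_eq_mul]
  apply Finset.sum_congr rfl
  intro i _
  rw [mul_comm]
  congr 2
  funext j
  simp [Pi.single_apply, eq_comm]

theorem map_add' (Q : QuadraticForm F (ι → F)) (x y : ι → F) :
    Q (x + y) = Q x + Q y + polar (⇑Q) x y := by
  simp [polar]

theorem siegelMatrix_mulVec (Q : QuadraticForm F (ι → F)) (u v : ι → F) (c : F) (x : ι → F) :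
    siegelMatrix (⇑Q) u v c *ᵥ x
      = x + (c * polar (⇑Q) u x) • v - (c * polar (⇑Q) v x) • u := by
  simp only [siegelMatrix, add_mulVec, one_mulVec, smul_mulVec, sub_mulVec, vecMulVec_mulVec,
    polarVec_dotProduct]
  funext i
  simp only [Pi.add_apply, Pi.sub_apply, Pi.smul_apply, smul_eq_mul, MulOpposite.smul_eq_mul_unop,
    MulOpposite.unop_op]
  ring

end CommRing

section Field

variable {ι : Type} [Fintype ι] [DecidableEq ι] {F : Type*} [Field F]

theorem reflectionMatrix_mulVec (Q : QuadraticForm F (ι → F)) (v x : ι → F) :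
    reflectionMatrix (⇑Q) v *ᵥ x = x - ((Q v)⁻¹ * polar (⇑Q) v x) • v := by
  simp only [reflectionMatrix, sub_mulVec, one_mulVec, smul_mulVec, vecMulVec_mulVec,
    polarVec_dotProduct]
  funext i
  simp only [Pi.sub_apply, Pi.smul_apply, smul_eq_mul, MulOpposite.smul_eq_mul_unop,
    MulOpposite.unop_op]
  ring

theorem reflectionMatrix_isometry (Q : QuadraticForm F (ι → F)) (v : ι → F) (hv : Q v ≠ 0)
    (x : ι → F) : Q (reflectionMatrix (⇑Q) v *ᵥ x) = Q x := by
  rw [reflectionMatrix_mulVec, sub_eq_add_neg, ← neg_smul, map_add', QuadraticMap.map_smul,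
    polar_smul_right, polar_comm (⇑Q) x v]
  simp only [smul_eq_mul]
  field_simp
  ring

theorem reflectionMatrix_self (Q : QuadraticForm F (ι → F)) (v : ι → F) (hv : Q v ≠ 0) :
    reflectionMatrix (⇑Q) v *ᵥ v = -v := by
  rw [reflectionMatrix_mulVec, polar_self]
  have : (Q v)⁻¹ * (2 • Q v) = 2 := by
    rw [nsmul_eq_mul]; field_simp; norm_num
  rw [this]
  module

theorem reflectionMatrix_fix (Q : QuadraticForm F (ι → F)) (v x : ι → F)
    (h : polar (⇑Q) v x = 0) : reflectionMatrix (⇑Q) v *ᵥ x = x := by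
  rw [reflectionMatrix_mulVec, h]
  simp

theorem reflectionMatrix_det (Q : QuadraticForm F (ι → F)) (v : ι → F) (hv : Q v ≠ 0) :
    (reflectionMatrix (⇑Q) v).det = -1 := by
  have h1 : reflectionMatrix (⇑Q) v
      = 1 + replicateCol Unit (-(Q v)⁻¹ • v) * replicateRow Unit (polarVec (⇑Q) v) := by
    rw [← vecMulVec_eq Unit, reflectionMatrix, sub_eq_add_neg, smul_vecMulVec, neg_smul]
  rw [h1, det_one_add_replicateCol_mul_replicateRow, dotProduct_smul, polarVec_dotProduct,
    polar_self]
  simp only [smul_eq_mul, nsmul_eq_mul]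
  field_simp
  norm_num

theorem reflectionMatrix_mul_self (Q : QuadraticForm F (ι → F)) (v : ι → F) (hv : Q v ≠ 0) :
    reflectionMatrix (⇑Q) v * reflectionMatrix (⇑Q) v = 1 := by
  apply mat_ext_mulVec
  intro x
  rw [← mulVec_mulVec, one_mulVec, reflectionMatrix_mulVec Q v x, mulVec_sub, mulVec_smul,
    reflectionMatrix_self Q v hv, reflectionMatrix_mulVec]
  module

end Field

end Cfsg.Agent.Lib.Helper17Orth
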