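import Mathlib
import Cfsg.Prelude.Def_ClassicalGeometry
import Cfsg.Agent.Lib.Helper17Orth

set_option autoImplicit false
open Cfsg

namespace Cfsg.Agent.Lib.Helper17Orth2

open Matrix QuadraticMap Cfsg.Agent.Lib.Helper17Orth

variable {ι : Type} [Fintype ι] [DecidableEq ι] {F : Type*} [Field F]

theorem mem_isometryGroup_iff (Q : (ι → F) → F) (g : Matrix.GeneralLinearGroup ι F) :
    g ∈ isometryGroup F Q ↔ ∀ x, Q ((g : Matrix ι ι F) *ᵥ x) = Q x := by
  constructor
  · intro h x
    exact h x x
  · intro h x _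
    exact h x

theorem isometry_polar (Q : QuadraticForm F (ι → F)) (g : Matrix ι ι F)
    (hg : ∀ x, Q (g *ᵥ x) = Q x) (x y : ι → F) :
    polar (⇑Q) (g *ᵥ x) (g *ᵥ y) = polar (⇑Q) x y := by
  simp [polar, ← mulVec_add, hg]

theorem isometry_det_sq (Q : QuadraticForm F (ι → F)) (hQ : (polarBilin Q).Nondegenerate)
    (g : Matrix ι ι F) (hg : ∀ x, Q (g *ᵥ x) = Q x) : g.det * g.det = 1 := by
  have hM : (LinearMap.BilinForm.toMatrix' (polarBilin Q)).det ≠ 0 :=
    (LinearMap.BilinForm.nondegenerate_toMatrix'_iff.2 hQ).det_ne_zero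
  have h : gᵀ * LinearMap.BilinForm.toMatrix' (polarBilin Q) * g
      = LinearMap.BilinForm.toMatrix' (polarBilin Q) := by
    rw [LinearMap.BilinForm.mul_toMatrix'_mul]
    congr 1
    ext x y
    simp only [transpose_transpose, LinearMap.BilinForm.comp_apply, toLin'_apply,
      polarBilin_apply_apply]
    exact isometry_polar Q g hg _ _
  have h2 := congrArg Matrix.det h
  rw [det_mul, det_mul, det_transpose] at h2
  have h3 : (g.det * g.det - 1) * (LinearMap.BilinForm.toMatrix' (polarBilin Q)).det = 0 := by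
    linear_combination h2
  rcases mul_eq_zero.mp h3 with h4 | h4
  · linear_combination h4
  · exact absurd h4 hM

theorem isometry_det (Q : QuadraticForm F (ι → F)) (hQ : (polarBilin Q).Nondegenerate)
    (g : Matrix ι ι F) (hg : ∀ x, Q (g *ᵥ x) = Q x) : g.det = 1 ∨ g.det = -1 := by
  have h := isometry_det_sq Q hQ g hg
  have h3 : (g.det - 1) * (g.det + 1) = 0 := by linear_combination h
  rcases mul_eq_zero.mp h3 with h4 | h4
  · left; linear_combination h4
  · right; linear_combination h4

/-- The reflection as an element of the general linear group. -/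
noncomputable def reflGL (Q : QuadraticForm F (ι → F)) (v : ι → F) (hv : Q v ≠ 0) :
    Matrix.GeneralLinearGroup ι F :=
  ⟨reflectionMatrix (⇑Q) v, reflectionMatrix (⇑Q) v, reflectionMatrix_mul_self Q v hv,
    reflectionMatrix_mul_self Q v hv⟩

/-- The reflection as an element of the isometry group. -/
noncomputable def reflIso (Q : QuadraticForm F (ι → F)) (v : ι → F) (hv : Q v ≠ 0) :
    isometryGroup F (⇑Q) :=
  ⟨reflGL Q v hv, (mem_isometryGroup_iff _ _).2 (reflectionMatrix_isometry Q v hv)⟩

theorem coe_reflIso (Q : QuadraticForm F (ι → F)) (v : ι → F) (hv : Q v ≠ 0) :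
    ((reflIso Q v hv : Matrix.GeneralLinearGroup ι F) : Matrix ι ι F) = reflectionMatrix (⇑Q) v :=
  rfl

end Cfsg.Agent.Lib.Helper17Orth2
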