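import Mathlib

/-!
Vocabulary for S4073 (simple groups in which every non-abelian subgroup is self-normalizing).
-/

set_option autoImplicit false

namespace Cfsg.Agent.Lib.Helper20SNDefs

/-- the subgroup `H` is abelian (elementwise form). -/
def Ab {G : Type*} [Group G] (H : Subgroup G) : Prop := ∀ a ∈ H, ∀ b ∈ H, a * b = b * a

/-- every non-abelian subgroup is self-normalizing. -/
def PP (G : Type*) [Group G] : Prop :=
  ∀ H : Subgroup G, ¬ Ab H → Subgroup.normalizer (H : Set G) ≤ H

/-- the centralizer of every non-identity element is abelian (elementwise form). -/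
def CA (G : Type*) [Group G] : Prop :=
  ∀ x : G, x ≠ 1 → ∀ a b : G, a * x = x * a → b * x = x * b → a * b = b * a

/-- no subgroup lies strictly between `C(f)` and `N(C(f))`. -/
def KK (G : Type*) [Group G] : Prop :=
  ∀ f : G, f ≠ 1 → ∀ U : Subgroup G, Subgroup.centralizer ({f} : Set G) ≤ U →
    U ≤ Subgroup.normalizer (Subgroup.centralizer ({f} : Set G) : Set G) →
    U = Subgroup.centralizer ({f} : Set G) ∨
      U = Subgroup.normalizer (Subgroup.centralizer ({f} : Set G) : Set G)

/-- `L = A ⋊ ⟨y⟩`, `A` abelian normal of order prime to `r`, `y` an `r`-element acting without fixed points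
on `A`, `y ^ r` central in `L`. -/
structure TypeII {G : Type*} [Group G] (L A : Subgroup G) (r : ℕ) (y : G) : Prop where
  prime : r.Prime
  le : A ≤ L
  mem : y ∈ L
  norm : ∀ g ∈ L, ∀ a ∈ A, g * a * g⁻¹ ∈ A
  ab : Ab A
  cop : (Nat.card A).Coprime r
  ord : ∃ k : ℕ, orderOf y = r ^ k
  gen : ∀ g ∈ L, ∃ a ∈ A, ∃ i : ℕ, g = a * y ^ i
  fpf : ∀ a ∈ A, a * y = y * a → a = 1
  cen : ∀ g ∈ L, g * y ^ r = y ^ r * g

/-- set-up for the structure of solvable `PP`-groups. -/
structure Pre {G : Type*} [Group G] (K A : Subgroup G) (r : ℕ) (y : G) : Prop where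
  prime : r.Prime
  normal : K.Normal
  ab : Ab K
  index : K.index = r
  not_mem : y ∉ K
  ord : ∃ k : ℕ, orderOf y = r ^ k
  mem_A : ∀ a : G, a ∈ A ↔ a ∈ K ∧ (orderOf a).Coprime r

theorem ab_iff {G : Type*} [Group G] (H : Subgroup G) : Ab H ↔ IsMulCommutative H := by
  constructor
  · intro h
    exact ⟨⟨fun a b => Subtype.ext (h a a.2 b b.2)⟩⟩
  · intro h a ha b hb
    exact congrArg Subtype.val (h.is_comm.comm (⟨a, ha⟩ : H) ⟨b, hb⟩)

theorem ab_top_iff {G : Type*} [Group G] : Ab (⊤ : Subgroup G) ↔ IsMulCommutative G := by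
  constructor
  · intro h
    exact ⟨⟨fun a b => h a trivial b trivial⟩⟩
  · intro h a _ b _
    exact h.is_comm.comm a b

theorem Ab.mono {G : Type*} [Group G] {H K : Subgroup G} (h : Ab K) (hHK : H ≤ K) : Ab H :=
  fun a ha b hb => h a (hHK ha) b (hHK hb)

theorem pp_iff {G : Type*} [Group G] :
    PP G ↔ ∀ H : Subgroup G, ¬ IsMulCommutative H → Subgroup.normalizer (H : Set G) = H := by
  constructor
  · intro h H hH
    exact le_antisymm (h H (fun h' => hH ((ab_iff H).1 h'))) Subgroup.le_normalizer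
  · intro h H hH
    exact (h H (fun h' => hH ((ab_iff H).2 h'))).le

/-- in a finite group, `g H g⁻¹ ⊆ H` is enough for `g ∈ N(H)`. -/
theorem mem_normalizer_of_conj {G : Type*} [Group G] [Finite G] {H : Subgroup G} {g : G}
    (hg : ∀ h ∈ H, g * h * g⁻¹ ∈ H) : g ∈ Subgroup.normalizer (H : Set G) := by
  rw [Subgroup.mem_normalizer_iff]
  intro h
  refine ⟨hg h, fun hh => ?_⟩
  -- the map `h ↦ g h g⁻¹` is an injective self-map of the finite set `H`
  let φ : H → H := fun x => ⟨g * x * g⁻¹, hg x x.2⟩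
  have hinj : Function.Injective φ := by
    intro a b hab
    have := congrArg Subtype.val hab
    simp only [φ] at this
    exact Subtype.ext (by simpa using this)
  obtain ⟨x, hx⟩ := (Finite.injective_iff_surjective.1 hinj) ⟨g * h * g⁻¹, hh⟩
  have := congrArg Subtype.val hx
  simp only [φ] at this
  have h2 : (x : G) = h := by simpa using this
  exact h2 ▸ x.2

theorem PP.mem {G : Type*} [Group G] [Finite G] (hP : PP G) {H : Subgroup G} (hH : ¬ Ab H) {g : G}
    (hg : ∀ h ∈ H, g * h * g⁻¹ ∈ H) : g ∈ H :=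
  hP H hH (mem_normalizer_of_conj hg)

/-- contrapositive form: a subgroup normalized by an element outside it is abelian. -/
theorem PP.ab_of_not_mem {G : Type*} [Group G] [Finite G] (hP : PP G) {H : Subgroup G} {g : G}
    (hg : ∀ h ∈ H, g * h * g⁻¹ ∈ H) (hgH : g ∉ H) : Ab H := by
  by_contra h
  exact hgH (hP.mem h hg)

theorem PP.normal_ab {G : Type*} [Group G] [Finite G] (hP : PP G) {N : Subgroup G} (hN : N.Normal)
    (hne : N ≠ ⊤) : Ab N := by
  obtain ⟨g, hg⟩ : ∃ g : G, g ∉ N := by
    by_contra h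
    push Not at h
    exact hne (eq_top_iff.2 fun x _ => h x)
  exact hP.ab_of_not_mem (fun h hh => hN.conj_mem h hh g) hg

theorem Ab.map {G G' : Type*} [Group G] [Group G'] {H : Subgroup G} (h : Ab H) (f : G →* G') :
    Ab (H.map f) := by
  rintro _ ⟨a, ha, rfl⟩ _ ⟨b, hb, rfl⟩
  rw [← map_mul, ← map_mul, h a ha b hb]

theorem Ab.of_map {G G' : Type*} [Group G] [Group G'] {H : Subgroup G} {f : G →* G'}
    (hf : Function.Injective f) (h : Ab (H.map f)) : Ab H := by
  intro a ha b hb
  apply hf
  rw [map_mul, map_mul]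
  exact h _ ⟨a, ha, rfl⟩ _ ⟨b, hb, rfl⟩

theorem PP.subgroup {G : Type*} [Group G] (hP : PP G) (L : Subgroup G) : PP L := by
  intro H hH g hg
  have h1 : ¬ Ab (H.map L.subtype) := fun h => hH (Ab.of_map L.subtype_injective h)
  have h2 : (g : G) ∈ Subgroup.normalizer ((H.map L.subtype : Subgroup G) : Set G) := by
    rw [Subgroup.mem_normalizer_iff] at hg ⊢
    intro h
    constructor
    · rintro ⟨x, hx, rfl⟩
      exact ⟨g * x * g⁻¹, (hg x).1 hx, by simp⟩
    · rintro ⟨x, hx, hxe⟩
      have hh : h ∈ L := by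
        have h3 : (g : G)⁻¹ * (x : G) * g ∈ L := L.mul_mem (L.mul_mem (L.inv_mem g.2) x.2) g.2
        have h4 : (g : G)⁻¹ * (x : G) * g = h := by
          have : (x : G) = g * h * (g : G)⁻¹ := hxe
          rw [this]; group
        exact h4 ▸ h3
      refine ⟨⟨h, hh⟩, (hg ⟨h, hh⟩).2 ?_, rfl⟩
      have : g * ⟨h, hh⟩ * g⁻¹ = x := Subtype.ext (by simpa using hxe.symm)
      rw [this]; exact hx
  obtain ⟨x, hx, hxe⟩ := hP _ h1 h2
  have : x = g := Subtype.ext hxe
  exact this ▸ hx

theorem PP.quotient {G : Type*} [Group G] (hP : PP G) (M : Subgroup G) [M.Normal] : PP (G ⧸ M) := by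
  intro H hH g hg
  obtain ⟨g, rfl⟩ := QuotientGroup.mk'_surjective M g
  have h1 : ¬ Ab (H.comap (QuotientGroup.mk' M)) := by
    intro h
    apply hH
    intro a ha b hb
    obtain ⟨a, rfl⟩ := QuotientGroup.mk'_surjective M a
    obtain ⟨b, rfl⟩ := QuotientGroup.mk'_surjective M b
    rw [← map_mul, ← map_mul, h a ha b hb]
  have h2 : g ∈ Subgroup.normalizer ((H.comap (QuotientGroup.mk' M) : Subgroup G) : Set G) := by
    rw [Subgroup.mem_normalizer_iff] at hg ⊢
    intro h
    have := hg (QuotientGroup.mk' M h)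
    simpa [Subgroup.mem_comap] using this
  exact hP _ h1 h2

theorem PP.of_equiv {G G' : Type*} [Group G] [Group G'] (e : G ≃* G') (hP : PP G) : PP G' := by
  intro H hH g hg
  have h1 : ¬ Ab (H.comap e.toMonoidHom) := by
    intro h
    apply hH
    intro a ha b hb
    have := h (e.symm a) (by simpa [Subgroup.mem_comap] using ha) (e.symm b)
      (by simpa [Subgroup.mem_comap] using hb)
    simpa using congrArg e this
  have h2 : e.symm g ∈ Subgroup.normalizer ((H.comap e.toMonoidHom : Subgroup G) : Set G) := by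
    rw [Subgroup.mem_normalizer_iff] at hg ⊢
    intro h
    have := hg (e h)
    simpa [Subgroup.mem_comap] using this
  have := hP _ h1 h2
  simpa [Subgroup.mem_comap] using this

theorem CA.subgroup {G : Type*} [Group G] (h : CA G) (L : Subgroup G) : CA L := by
  intro x hx a b ha hb
  apply Subtype.ext
  exact h x (fun h' => hx (Subtype.ext h')) a b (congrArg Subtype.val ha) (congrArg Subtype.val hb)

theorem CA.of_equiv {G G' : Type*} [Group G] [Group G'] (e : G ≃* G') (h : CA G) : CA G' := by
  intro x hx a b ha hb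
  have := h (e.symm x) (fun h' => hx (by simpa using congrArg e h')) (e.symm a) (e.symm b)
    (by rw [← map_mul, ← map_mul, ha]) (by rw [← map_mul, ← map_mul, hb])
  simpa using congrArg e this

/-- in a `CA`-group the centralizer of a non-identity element is abelian. -/
theorem CA.ab_centralizer {G : Type*} [Group G] (h : CA G) {x : G} (hx : x ≠ 1) :
    Ab (Subgroup.centralizer ({x} : Set G)) := by
  intro a ha b hb
  exact h x hx a b (Subgroup.mem_centralizer_singleton_iff.1 ha)
    (Subgroup.mem_centralizer_singleton_iff.1 hb)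

/-- in a `CA`-group commuting is transitive on non-identity elements. -/
theorem CA.trans {G : Type*} [Group G] (h : CA G) {x a b : G} (hx : x ≠ 1) (ha : a * x = x * a)
    (hb : b * x = x * b) : a * b = b * a := h x hx a b ha hb

end Cfsg.Agent.Lib.Helper20SNDefs
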