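import Mathlib
import Cfsg.Agent.Lib.Helper20SNDefs
import Cfsg.Agent.Lib.Helper90AbCentSplit

/-! PROJECT 73, piece `gal`. -/

set_option autoImplicit false

namespace Cfsg.Agent.Lib.Helper17SNGal

open Cfsg.Agent.Lib.Helper20SNDefs

local notation "SL2" F => Matrix.SpecialLinearGroup (Fin 2) F

/-- a ring isomorphism induces an isomorphism of special linear groups -/
def slCongr {R S : Type*} [CommRing R] [CommRing S] (e : R ≃+* S) :
    (SL2 R) ≃* (SL2 S) :=
  MonoidHom.toMulEquiv (Matrix.SpecialLinearGroup.map e.toRingHom)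
    (Matrix.SpecialLinearGroup.map e.symm.toRingHom)
    (by
      ext g i j
      exact e.symm_apply_apply _)
    (by
      ext g i j
      exact e.apply_symm_apply _)

/-- piece `gal` -/
theorem iso_gal (F : Type*) [Field F] [Fintype F] [CharP F 2] (n : ℕ) (hn : Fintype.card F = 2 ^ n) :
    Nonempty ((SL2 F) ≃* Matrix.ProjectiveSpecialLinearGroup (Fin 2) (GaloisField 2 n)) := by
  have : Fact (Nat.Prime 2) := ⟨Nat.prime_two⟩
  let _ : Algebra (ZMod 2) F := ZMod.algebra F 2
  have e : F ≃ₐ[ZMod 2] GaloisField 2 n := GaloisField.algEquivGaloisFieldOfFintype 2 n hn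
  have hc := Cfsg.Agent.Lib.Helper90AbCentSplit.center_eq_bot (GaloisField 2 n)
  exact ⟨(slCongr e.toRingEquiv).trans
    ((QuotientGroup.quotientBot).symm.trans (QuotientGroup.quotientMulEquivOfEq hc.symm))⟩

end Cfsg.Agent.Lib.Helper17SNGal
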