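import Mathlib
import Cfsg.Agent.Lib.Helper20SNDefs

/-! PROJECT 73, piece `mers`. -/

set_option autoImplicit false

namespace Cfsg.Agent.Lib.Helper17SNMers

open Cfsg.Agent.Lib.Helper20SNDefs

local notation "SL2" F => Matrix.SpecialLinearGroup (Fin 2) F

variable {F : Type*} [Field F]

/-- diagonal matrix -/
def dg (u : Fˣ) : SL2 F :=
  ⟨!![(u : F), 0; 0, ((u⁻¹ : Fˣ) : F)], by simp [Matrix.det_fin_two]⟩

/-- the unipotent element -/
def un : SL2 F := ⟨!![1, 1; 0, 1], by simp [Matrix.det_fin_two]⟩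

theorem det_eq (g : SL2 F) : g.1 0 0 * g.1 1 1 - g.1 0 1 * g.1 1 0 = 1 := by
  have := g.2
  rwa [Matrix.det_fin_two] at this

/-- the subgroup of upper triangular matrices whose first entry has order dividing `d` -/
def HH (F : Type*) [Field F] (d : ℕ) : Subgroup (SL2 F) where
  carrier := {g | g.1 1 0 = 0 ∧ (g.1 0 0) ^ d = 1}
  one_mem' := by simp
  mul_mem' := by
    rintro g h ⟨g1, g2⟩ ⟨h1, h2⟩
    refine ⟨?_, ?_⟩
    · show (g * h).1 1 0 = 0
      rw [Matrix.SpecialLinearGroup.coe_mul, Matrix.mul_apply, Fin.sum_univ_two, g1, h1]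
      ring
    · show ((g * h).1 0 0) ^ d = 1
      rw [Matrix.SpecialLinearGroup.coe_mul, Matrix.mul_apply, Fin.sum_univ_two, h1, mul_zero,
        add_zero, mul_pow, g2, h2, one_mul]
  inv_mem' := by
    rintro g ⟨g1, g2⟩
    refine ⟨?_, ?_⟩
    · show (g⁻¹).1 1 0 = 0
      rw [Matrix.SpecialLinearGroup.coe_inv, Matrix.adjugate_fin_two]
      simp [g1]
    · show ((g⁻¹).1 0 0) ^ d = 1
      rw [Matrix.SpecialLinearGroup.coe_inv, Matrix.adjugate_fin_two]
      have h := det_eq g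
      rw [g1, mul_zero, sub_zero] at h
      have h2 : (g.1 0 0 * g.1 1 1) ^ d = 1 := by rw [h, one_pow]
      rw [mul_pow, g2, one_mul] at h2
      simpa using h2

theorem mem_HH {d : ℕ} {g : SL2 F} : g ∈ HH F d ↔ g.1 1 0 = 0 ∧ (g.1 0 0) ^ d = 1 := Iff.rfl

theorem mul_entry (g h : SL2 F) (i j : Fin 2) :
    (g * h).1 i j = g.1 i 0 * h.1 0 j + g.1 i 1 * h.1 1 j := by
  rw [Matrix.SpecialLinearGroup.coe_mul, Matrix.mul_apply, Fin.sum_univ_two]

theorem dg00 (u : Fˣ) : (dg u).1 0 0 = (u : F) := rfl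
theorem dg01 (u : Fˣ) : (dg u).1 0 1 = 0 := rfl
theorem dg10 (u : Fˣ) : (dg u).1 1 0 = 0 := rfl
theorem dg11 (u : Fˣ) : (dg u).1 1 1 = ((u⁻¹ : Fˣ) : F) := rfl
theorem un00 : (un : SL2 F).1 0 0 = 1 := rfl
theorem un01 : (un : SL2 F).1 0 1 = 1 := rfl
theorem un10 : (un : SL2 F).1 1 0 = 0 := rfl
theorem un11 : (un : SL2 F).1 1 1 = 1 := rfl

theorem dg_inv (u : Fˣ) : (dg u)⁻¹ = dg u⁻¹ := by
  apply inv_eq_of_mul_eq_one_right
  apply Subtype.ext
  rw [Matrix.SpecialLinearGroup.coe_mul]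
  ext i j
  fin_cases i <;> fin_cases j <;> simp [dg, Matrix.mul_apply, Fin.sum_univ_two]

/-- piece `mers` -/
theorem mersenne (F : Type*) [Field F] [Fintype F] [CharP F 2] (h4 : 4 ≤ Fintype.card F)
    (hP : PP (SL2 F)) : (Fintype.card F - 1).Prime := by
  classical
  by_contra hnp
  obtain ⟨d, hd, hd1, hd2⟩ := (Nat.not_prime_iff_exists_dvd_lt (by omega)).1 hnp
  obtain ⟨c, hc⟩ := IsCyclic.exists_generator (α := Fˣ)
  have hord : orderOf c = Fintype.card F - 1 := by
    rw [orderOf_eq_card_of_forall_mem_zpowers hc, Nat.card_eq_fintype_card, Fintype.card_units]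
  obtain ⟨k, hk⟩ := hd
  have hkpos : 0 < k := by
    rcases Nat.eq_zero_or_pos k with h | h
    · rw [h, mul_zero] at hk; omega
    · exact h
  have hklt : k < Fintype.card F - 1 := by
    rw [hk]
    nlinarith
  set a : Fˣ := c ^ k with ha
  have ha1 : a ≠ 1 := by
    intro h
    have := orderOf_dvd_of_pow_eq_one h
    rw [hord] at this
    exact absurd (Nat.le_of_dvd hkpos this) (by omega)
  have had : a ^ d = 1 := by
    rw [ha, ← pow_mul, mul_comm, ← hk, ← hord, pow_orderOf_eq_one]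
  have hcd : c ^ d ≠ 1 := by
    intro h
    have := orderOf_dvd_of_pow_eq_one h
    rw [hord] at this
    exact absurd (Nat.le_of_dvd (by omega) this) (by omega)
  have hna : ¬ Ab (HH F d) := by
    intro hab
    have h1 : dg a ∈ HH F d := by
      rw [mem_HH]
      refine ⟨dg10 a, ?_⟩
      have : ((a ^ d : Fˣ) : F) = 1 := by rw [had]; rfl
      rw [dg00, ← Units.val_pow_eq_pow_val]
      exact this
    have h2 : (un : SL2 F) ∈ HH F d := by
      rw [mem_HH, un10, un00]
      simp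
    have h3 := hab _ h1 _ h2
    have h4 : (dg a * un).1 0 1 = (un * dg a).1 0 1 := by rw [h3]
    rw [mul_entry, mul_entry, dg00, dg01, dg11, un00, un01, un11, mul_one, zero_mul, add_zero,
      one_mul, one_mul, zero_add] at h4
    -- a = a⁻¹
    have h5 : (a : F) * a = 1 := by
      have : (a : F) * ((a⁻¹ : Fˣ) : F) = 1 := by simp
      rw [← h4] at this
      exact this
    have h6 : ((a : F) - 1) ^ 2 = 0 := by
      have h2 : (2 : F) = 0 := CharTwo.two_eq_zero
      linear_combination h5 + (1 - (a : F)) * h2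
    have h7 : (a : F) = 1 := by
      have := pow_eq_zero_iff (two_ne_zero) |>.1 h6
      linear_combination this
    exact ha1 (Units.ext h7)
  have hnorm : dg c ∈ Subgroup.normalizer ((HH F d : Subgroup (SL2 F)) : Set (SL2 F)) := by
    apply mem_normalizer_of_conj
    intro g hg
    rw [mem_HH] at hg ⊢
    obtain ⟨g1, g2⟩ := hg
    rw [dg_inv]
    constructor
    · rw [mul_entry, mul_entry, mul_entry, dg00, dg10, dg10, dg11, g1]
      ring
    · rw [mul_entry, mul_entry, mul_entry, dg00, dg10, dg00, dg01, g1]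
      have : (c : F) * ((c⁻¹ : Fˣ) : F) = 1 := by simp
      have e : ((c : F) * g.1 0 0 + 0 * 0) * ((c⁻¹ : Fˣ) : F) + ((c : F) * g.1 0 1 + 0 * g.1 1 1) * 0
          = g.1 0 0 := by
        linear_combination (g.1 0 0) * this
      rw [e, g2]
  have hmem := hP _ hna hnorm
  rw [mem_HH] at hmem
  apply hcd
  apply Units.ext
  have := hmem.2
  rw [dg00, ← Units.val_pow_eq_pow_val] at this
  exact this

end Cfsg.Agent.Lib.Helper17SNMers
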