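import Mathlib
import Cfsg.Agent.Lib.Helper58SylDefs
import Cfsg.Agent.Lib.Helper40Sylgen
import Cfsg.Agent.Lib.Helper73SylWrcard
import Cfsg.Agent.Lib.Helper73SylWrclosure

/-! PROJECT 58 part 2, piece `sl1abs`.  The piece `lemK2` enters as the last hypothesis. -/

set_option autoImplicit false

namespace Cfsg.Agent.Lib.Helper17SylSl1abs

open Cfsg.Agent.Lib.Helper58SylDefs
open scoped commutatorElement

section
variable {G A : Type*} [Group G] [CommGroup A] {n : ℕ} (W : WD G A n)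

/-- the `i`-th coordinate subgroup -/
def bb (i : Fin n) : A →* G := W.B.comp (MonoidHom.mulSingle (fun _ : Fin n => A) i)

theorem bb_apply (i : Fin n) (x : A) : bb W i x = W.B (Pi.mulSingle i x) := rfl

theorem bb_comm (i l : Fin n) (x y : A) : bb W i x * bb W l y = bb W l y * bb W i x := by
  rw [bb_apply, bb_apply, ← map_mul, ← map_mul, mul_comm]

theorem conj_bb (π : Equiv.Perm (Fin n)) (i : Fin n) (x : A) :
    W.Pm π * bb W i x * (W.Pm π)⁻¹ = bb W (π i) x := by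
  rw [bb_apply, W.conj, bb_apply]
  congr 1
  funext l
  by_cases h : l = π i
  · subst h
    simp
  · have : π⁻¹ l ≠ i := by
      intro h'
      apply h
      rw [← h']
      simp
    rw [Pi.mulSingle_eq_of_ne h, Pi.mulSingle_eq_of_ne this]

/-- the elements `Y i l x` -/
def YY (i l : Fin n) (x : A) : G := bb W i x * bb W l x⁻¹

theorem YY_self (i : Fin n) (x : A) : YY W i i x = 1 := by
  rw [YY, ← map_mul, mul_inv_cancel, map_one]

theorem YY_symm (i l : Fin n) (x : A) : YY W l i x = (YY W i l x)⁻¹ := by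
  rw [YY, YY, mul_inv_rev, ← map_inv, ← map_inv, inv_inv]

theorem YY_trans (i l m : Fin n) (x : A) : YY W i m x = YY W i l x * YY W l m x := by
  rw [YY, YY, YY, mul_assoc, ← mul_assoc (bb W l x⁻¹), ← map_mul, inv_mul_cancel, map_one, one_mul]

theorem YY_comm (i l i' l' : Fin n) (x y : A) :
    YY W i l x * YY W i' l' y = YY W i' l' y * YY W i l x := by
  simp only [YY, bb_apply, ← map_mul]
  rw [mul_comm]

theorem YY_sq (i l : Fin n) (x : A) : YY W i l (x * x) = YY W i l x ^ 2 := by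
  simp only [YY, bb_apply, ← map_mul, sq]
  congr 1
  rw [mul_inv, Pi.mulSingle_mul, Pi.mulSingle_mul]
  exact mul_mul_mul_comm _ _ _ _

theorem conj_YY (π : Equiv.Perm (Fin n)) (i l : Fin n) (x : A) :
    W.Pm π * YY W i l x * (W.Pm π)⁻¹ = YY W (π i) (π l) x := by
  rw [YY, YY, ← conj_bb, ← conj_bb]
  group

end

/-- piece `sl1abs` -/
theorem sl1_abs {G A : Type*} [Group G] [Finite G] [CommGroup A] {n : ℕ} (hn : 1 ≤ n)
    (W : WD G A n) (δ : G →* A) (c c₀ : A) (hc1 : c ≠ 1) (hc0 : c₀ * c₀ = c) (hc2 : c * c = 1)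
    (hB : ∀ d, δ (W.B d) = ∏ i, d i)
    (hPm1 : ∀ π, Equiv.Perm.sign π = 1 → δ (W.Pm π) = 1)
    (hPm2 : ∀ π, Equiv.Perm.sign π = -1 → δ (W.Pm π) = c)
    (C : Subgroup A) (a : ℕ) (hC : Nat.card C = 2 ^ a) (hc₀ : c₀ ∈ C)
    (T : Subgroup (Equiv.Perm (Fin n))) (t : ℕ) (hTc : Nat.card T = 2 ^ t)
    (hT : T = Subgroup.closure {π | π ∈ T ∧ π ^ 2 = 1})
    (htr : ∀ i l : Fin n, ∃ π ∈ T, π i = l)
    (hG : ¬ 2 ^ (a * n + t + 1) ∣ Nat.card G)
    (lemK2 : ∀ (p : ℕ) (S K R : Subgroup G) [K.Normal] (X : Set G)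
      (_ : S = Subgroup.closure X) (_ : R ≤ S) (_ : R ⊓ K = ⊥)
      (_ : ∀ x ∈ X, ∃ r ∈ R, x * r ∈ K ∧ (x * r) ^ p ∈ ⁅S ⊓ K, S ⊓ K⁆),
      S ⊓ K = Subgroup.closure {y | y ∈ S ⊓ K ∧ y ^ p ∈ ⁅S ⊓ K, S ⊓ K⁆}) : ElemAb 2 ↥δ.ker := by
  have : Fact (Nat.Prime 2) := ⟨Nat.prime_two⟩
  have hCfin : Finite C := Nat.finite_of_card_ne_zero (by rw [hC]; positivity)
  set S : Subgroup G := W.wr C T with hS
  set K : Subgroup G := δ.ker with hK
  set i₀ : Fin n := ⟨0, hn⟩ with hi₀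
  have hScard : Nat.card S = 2 ^ (a * n + t) := by
    rw [hS, Cfsg.Agent.Lib.Helper73SylWrcard.card_wr, hC, hTc, ← pow_mul, ← pow_add]
  have hδb : ∀ i x, δ (bb W i x) = x := by
    intro i x
    rw [bb_apply, hB]
    exact Fintype.prod_pi_mulSingle' i x
  have hbS : ∀ i, ∀ x ∈ C, bb W i x ∈ S := by
    intro i x hx
    apply Subgroup.mem_sup_left
    refine ⟨Pi.mulSingle i x, ?_, rfl⟩
    exact (Subgroup.mulSingle_mem_pi (H := fun _ : Fin n => C) i x).2 (fun _ => hx)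
  have hPS : ∀ π ∈ T, W.Pm π ∈ S := fun π hπ => Subgroup.mem_sup_right ⟨π, hπ, rfl⟩
  have hYP : ∀ i l, ∀ x ∈ C, YY W i l x ∈ S ⊓ K := by
    intro i l x hx
    refine ⟨S.mul_mem (hbS i x hx) (hbS l _ (C.inv_mem hx)), ?_⟩
    show YY W i l x ∈ δ.ker
    rw [MonoidHom.mem_ker, YY, map_mul, hδb, hδb, mul_inv_cancel]
  have hcC : c ∈ C := hc0 ▸ C.mul_mem hc₀ hc₀
  have hcinv : c⁻¹ = c := inv_eq_of_mul_eq_one_left hc2
  -- the twisted involutions
  have htw : ∀ σ ∈ T, ∃ e ∈ C, W.Pm σ * bb W i₀ e ∈ S ⊓ K ∧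
      (Equiv.Perm.sign σ = 1 → e = 1) ∧ (Equiv.Perm.sign σ = -1 → e = c) := by
    intro σ hσ
    rcases Int.units_eq_one_or (Equiv.Perm.sign σ) with h | h
    · refine ⟨1, C.one_mem, ⟨?_, ?_⟩, fun _ => rfl, fun h' => ?_⟩
      · rw [map_one, mul_one]; exact hPS σ hσ
      · show W.Pm σ * bb W i₀ 1 ∈ δ.ker
        rw [MonoidHom.mem_ker, map_one, mul_one, hPm1 σ h]
      · rw [h] at h'
        exact absurd h' (by decide)
    · refine ⟨c, hcC, ⟨S.mul_mem (hPS σ hσ) (hbS _ _ hcC), ?_⟩, fun h' => ?_, fun _ => rfl⟩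
      · show W.Pm σ * bb W i₀ c ∈ δ.ker
        rw [MonoidHom.mem_ker, map_mul, hPm2 σ h, hδb, hc2]
      · rw [h] at h'
        exact absurd h' (by decide)
  set P' : Subgroup G := ⁅S ⊓ K, S ⊓ K⁆ with hP'
  have hstep : ∀ σ ∈ T, σ ^ 2 = 1 → ∀ i, ∀ x ∈ C, YY W i (σ i) x ^ 2 ∈ P' := by
    intro σ hσ hσ2 i x hx
    obtain ⟨e, he, hmem, -, -⟩ := htw σ hσ
    have hcomm := Subgroup.commutator_mem_commutator hmem (hYP (σ i) i x hx)
    have hσσ : σ (σ i) = i := by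
      have := congrArg (fun f => f i) hσ2
      simpa [sq] using this
    have : ⁅W.Pm σ * bb W i₀ e, YY W (σ i) i x⁆ = YY W i (σ i) x ^ 2 := by
      rw [commutatorElement_def, mul_inv_rev]
      have h1 : W.Pm σ * bb W i₀ e * YY W (σ i) i x * ((bb W i₀ e)⁻¹ * (W.Pm σ)⁻¹)
          = W.Pm σ * YY W (σ i) i x * (W.Pm σ)⁻¹ := by
        have h2 : bb W i₀ e * YY W (σ i) i x = YY W (σ i) i x * bb W i₀ e := by
          rw [YY, ← mul_assoc, bb_comm W i₀ (σ i), mul_assoc, bb_comm W i₀ i, mul_assoc]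
        rw [mul_assoc (W.Pm σ), h2]
        group
      rw [h1, conj_YY, hσσ, ← YY_symm, sq]
    rw [← this]
    exact hcomm
  -- the equivalence relation
  have hrel : ∀ π ∈ T, ∀ i, ∀ x ∈ C, YY W i (π i) x ^ 2 ∈ P' := by
    intro π hπ
    rw [hT] at hπ
    induction hπ using Subgroup.closure_induction with
    | mem σ hσ => exact hstep σ hσ.1 hσ.2
    | one =>
      intro i x _
      rw [Equiv.Perm.one_apply, YY_self, one_pow]
      exact P'.one_mem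
    | mul π ρ _ _ ih1 ih2 =>
      intro i x hx
      rw [Equiv.Perm.mul_apply, YY_trans W i (ρ i) (π (ρ i)) x,
        (show Commute _ _ from YY_comm W _ _ _ _ x x).mul_pow]
      exact P'.mul_mem (ih2 i x hx) (ih1 (ρ i) x hx)
    | inv π _ ih =>
      intro i x hx
      have := ih (π⁻¹ i) x hx
      rw [show π (π⁻¹ i) = i from π.apply_symm_apply i] at this
      rw [YY_symm, inv_pow]
      exact P'.inv_mem this
  have hall : ∀ i l, ∀ x ∈ C, YY W i l x ^ 2 ∈ P' := by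
    intro i l x hx
    obtain ⟨π, hπ, rfl⟩ := htr i l
    exact hrel π hπ i x hx
  have hclosure := Cfsg.Agent.Lib.Helper73SylWrclosure.wr_eq_closure W C T (C : Set A)
    {π | π ∈ T ∧ π ^ 2 = 1} (Subgroup.closure_eq C).symm hT
  have hgen := lemK2 2 S K (C.map (bb W i₀)) _ hclosure ?_ ?_ ?_
  · exact Cfsg.Agent.Lib.Helper40Sylgen.elemAb_normal 2 K S (a * n + t) hScard hG _ hgen
      (fun y hy => hy.2)
  · rintro _ ⟨x, hx, rfl⟩
    exact hbS i₀ x hx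
  · rw [eq_bot_iff]
    rintro _ ⟨⟨x, -, rfl⟩, h2⟩
    replace h2 : bb W i₀ x ∈ δ.ker := h2
    rw [MonoidHom.mem_ker, hδb] at h2
    rw [h2, map_one]
    exact Subgroup.mem_bot.2 rfl
  · rintro g (⟨i, x, hx, rfl⟩ | ⟨σ, ⟨hσ, hσ2⟩, rfl⟩)
    · refine ⟨bb W i₀ x⁻¹, ⟨x⁻¹, C.inv_mem hx, rfl⟩, (hYP i i₀ x hx).2, hall i i₀ x hx⟩
    · obtain ⟨e, he, hmem, he1, he2⟩ := htw σ hσ
      refine ⟨bb W i₀ e, ⟨e, he, rfl⟩, hmem.2, ?_⟩
      have hPP : W.Pm σ * W.Pm σ = 1 := by rw [← map_mul, ← sq, hσ2, map_one]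
      have hinv : (W.Pm σ)⁻¹ = W.Pm σ := inv_eq_of_mul_eq_one_left hPP
      have hsq : (W.Pm σ * bb W i₀ e) ^ 2 = bb W (σ i₀) e * bb W i₀ e := by
        rw [← conj_bb, hinv, sq]
        simp only [mul_assoc]
      rw [hsq]
      rcases Int.units_eq_one_or (Equiv.Perm.sign σ) with h | h
      · rw [he1 h, map_one, map_one, one_mul]
        exact P'.one_mem
      · rw [he2 h]
        have : bb W (σ i₀) c * bb W i₀ c = YY W (σ i₀) i₀ c₀ ^ 2 := by
          rw [← YY_sq, hc0, YY, hcinv]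
        rw [this]
        exact hall _ _ _ hc₀

end Cfsg.Agent.Lib.Helper17SylSl1abs
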