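import Mathlib

/-! PROJECT 4064, piece `AB` (pure Mathlib, counting). -/

set_option autoImplicit false

namespace Cfsg.Agent.Lib.Helper17TiAB

/-- a free action of a finite group on a finite set: the order of the group divides the
cardinality of the set -/
theorem card_dvd_of_free {Y X : Type*} [Group Y] [Finite Y] [Finite X] [MulAction Y X]
    (h : ∀ (y : Y) (x : X), y • x = x → y = 1) : Nat.card Y ∣ Nat.card X := by
  classical
  have := Fintype.ofFinite Y
  have := Fintype.ofFinite X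
  have hB := MulAction.sum_card_fixedBy_eq_card_orbits_mul_card_group Y X
  rw [Finset.sum_eq_single 1] at hB
  · have h1 : Fintype.card (MulAction.fixedBy X (1 : Y)) = Fintype.card X := by
      apply Fintype.card_of_subtype Finset.univ
      intro x
      simp
    rw [h1] at hB
    rw [Nat.card_eq_fintype_card, Nat.card_eq_fintype_card, hB]
    exact Dvd.intro_left _ rfl
  · intro y _ hy
    rw [Fintype.card_eq_zero_iff]
    constructor
    rintro ⟨x, hx⟩
    exact hy (h y x hx)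
  · intro h1
    exact absurd (Finset.mem_univ _) h1

variable {G : Type*} [Group G] [Finite G]

theorem card_sub_one (A : Subgroup G) :
    Nat.card {a : G // a ∈ A ∧ a ≠ 1} = Nat.card A - 1 := by
  classical
  have e : {a : G // a ∈ A ∧ a ≠ 1} ≃ {a : A // a ≠ 1} :=
    { toFun := fun a => ⟨⟨a.1, a.2.1⟩, fun h => a.2.2 (congrArg Subtype.val h)⟩
      invFun := fun a => ⟨a.1.1, a.1.2, fun h => a.2 (Subtype.ext h)⟩
      left_inv := fun _ => rfl
      right_inv := fun _ => rfl }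
  have := Fintype.ofFinite A
  rw [Nat.card_congr e, Nat.card_eq_fintype_card, Nat.card_eq_fintype_card,
    Fintype.card_subtype_compl, Fintype.card_subtype_eq]

theorem abel_of_card (S E Y : Subgroup G) (q : ℕ) (hq : 2 ≤ q) (hES : E ≤ S)
    (hS : Nat.card S = q ^ 2) (hE : Nat.card E = q) (hY : Nat.card Y = q - 1)
    (hEc : ∀ e ∈ E, ∀ s ∈ S, e * s = s * e)
    (hfree : ∀ y ∈ Y, ∀ s ∈ S, s ≠ 1 → y * s = s * y → y = 1)
    (hnorm : ∀ y ∈ Y, ∀ x ∈ S, ∀ a ∈ S, a * x = x * a →
      y * a * y⁻¹ ∈ S ∧ (y * a * y⁻¹) * x = x * (y * a * y⁻¹)) :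
    ∀ a ∈ S, ∀ b ∈ S, a * b = b * a := by
  intro a ha x hx
  by_cases hxE : x ∈ E
  · exact (hEc x hxE a ha).symm
  set A : Subgroup G := S ⊓ Subgroup.centralizer {x} with hA
  have hmemA : ∀ g, g ∈ A ↔ g ∈ S ∧ g * x = x * g := by
    intro g
    rw [hA, Subgroup.mem_inf, Subgroup.mem_centralizer_singleton_iff]
  have hEA : E ≤ A := fun e he => (hmemA e).2 ⟨hES he, hEc e he x hx⟩
  have hAS : A ≤ S := inf_le_left
  have hxA : x ∈ A := (hmemA x).2 ⟨hx, rfl⟩
  -- the action
  let act : MulAction Y {a : G // a ∈ A ∧ a ≠ 1} :=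
    { smul := fun y a => ⟨y.1 * a.1 * y.1⁻¹, by
        refine ⟨?_, ?_⟩
        · have h1 := (hmemA a.1).1 a.2.1
          exact (hmemA _).2 (hnorm y.1 y.2 x hx a.1 h1.1 h1.2)
        · intro h
          apply a.2.2
          have : a.1 = y.1⁻¹ * (y.1 * a.1 * y.1⁻¹) * y.1 := by group
          rw [this, h]
          group⟩
      one_smul := fun a => Subtype.ext (by
        show (1 : G) * a.1 * (1 : G)⁻¹ = a.1
        group)
      mul_smul := fun y z a => Subtype.ext (by
        show (y.1 * z.1) * a.1 * (y.1 * z.1)⁻¹ = y.1 * (z.1 * a.1 * z.1⁻¹) * y.1⁻¹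
        group) }
  have hdvd : Nat.card Y ∣ Nat.card {a : G // a ∈ A ∧ a ≠ 1} := by
    apply card_dvd_of_free
    intro y a hya
    have h1 : y.1 * a.1 * y.1⁻¹ = a.1 := congrArg Subtype.val hya
    have h2 : y.1 * a.1 = a.1 * y.1 := by
      conv_rhs => rw [← h1]
      group
    exact Subtype.ext (hfree y.1 y.2 a.1 (hAS a.2.1) a.2.2 h2)
  rw [card_sub_one, hY] at hdvd
  obtain ⟨c, hc⟩ : q ∣ Nat.card A := hE ▸ Subgroup.card_dvd_of_le hEA
  have hAdvd : Nat.card A ∣ q ^ 2 := hS ▸ Subgroup.card_dvd_of_le hAS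
  have hcq : c ∣ q := by
    rw [hc, sq] at hAdvd
    exact Nat.dvd_of_mul_dvd_mul_left (by omega) hAdvd
  have hcpos : 0 < c := Nat.pos_of_dvd_of_pos hcq (by omega)
  have hc1 : c ≠ 1 := by
    intro h1
    rw [h1, mul_one] at hc
    have : E = A := Subgroup.eq_of_le_of_card_ge hEA (by rw [hc, hE])
    exact hxE (this ▸ hxA)
  have hcq' : c = q := by
    apply le_antisymm (Nat.le_of_dvd (by omega) hcq)
    rw [hc] at hdvd
    have e1 : q * c - 1 = (q - 1) * c + (c - 1) := by
      obtain ⟨q', rfl⟩ : ∃ q', q = q' + 1 := ⟨q - 1, by omega⟩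
      obtain ⟨c', rfl⟩ : ∃ c', c = c' + 1 := ⟨c - 1, by omega⟩
      simp only [Nat.add_sub_cancel]
      have : (q' + 1) * (c' + 1) = q' * (c' + 1) + c' + 1 := by ring
      rw [this, Nat.add_sub_cancel]
    rw [e1] at hdvd
    have h2 : q - 1 ∣ c - 1 := (Nat.dvd_add_right (Dvd.intro _ rfl)).1 hdvd
    have := Nat.le_of_dvd (by omega) h2
    omega
  have hAS' : A = S := Subgroup.eq_of_le_of_card_ge hAS (by rw [hc, hcq', hS, sq])
  exact ((hmemA a).1 (hAS' ▸ ha)).2

end Cfsg.Agent.Lib.Helper17TiAB
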