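import Cfsg.Agent.Lib.Helper16TiC
import Mathlib

/-!
PROJECT 4064, piece `PM`.
-/

set_option autoImplicit false

namespace Cfsg.Agent.Lib.Helper96TiPM

open Cfsg Cfsg.Agent.Helper16Ti

theorem pow_eq_one_of_closure {G : Type*} [Group G] {S : Set G}
    (hcomm : ∀ y ∈ S, ∀ z ∈ S, Commute y z) {n : ℕ} (hn : ∀ y ∈ S, y ^ n = 1) :
    ∀ y ∈ Subgroup.closure S, y ^ n = 1 := by
  have h1 : Subgroup.closure S ≤ Subgroup.centralizer S := by
    rw [Subgroup.closure_le]
    intro y hy
    rw [SetLike.mem_coe, Subgroup.mem_centralizer_iff]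
    intro z hz
    exact (hcomm z hz y hy).eq
  have h2 : Subgroup.closure S ≤ Subgroup.centralizer (Subgroup.closure S : Set G) := by
    rw [Subgroup.closure_le]
    intro y hy
    rw [SetLike.mem_coe, Subgroup.mem_centralizer_iff]
    intro z hz
    have := Subgroup.mem_centralizer_iff.1 (h1 hz) y hy
    exact this.symm
  intro y hy
  induction hy using Subgroup.closure_induction with
  | mem y hy => exact hn y hy
  | one => simp
  | mul a b ha hb iha ihb =>
    have : Commute a b := (Subgroup.mem_centralizer_iff.1 (h2 hb) a ha)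
    rw [this.mul_pow, iha, ihb, one_mul]
  | inv a ha iha => rw [inv_pow, iha, inv_one]

variable {G : Type*} [Group G] [Finite G]

theorem p_mem (h : TIC G) {p : ℕ} [Fact p.Prime] (P : Sylow p G) {w : G} (hw : w ≠ 1)
    (hP : ∀ x ∈ P, Commute x w) {x : G} (hx : Commute x w) (hxp : ∃ k : ℕ, orderOf x = p ^ k) :
    x ∈ P := by
  classical
  obtain ⟨k, hk⟩ := hxp
  set S : Set G := {y | ∃ c ∈ P, y = c * x * c⁻¹} with hS
  have hcomm : ∀ y ∈ S, ∀ z ∈ S, Commute y z := by
    rintro y ⟨c, hc, rfl⟩ z ⟨d, hd, rfl⟩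
    have hb : Commute (c⁻¹ * d) w := ((hP c hc).inv_left).mul_left (hP d hd)
    have h1 : Commute x ((c⁻¹ * d) * x * (c⁻¹ * d)⁻¹) := h.engel hw hx hb
    have h2 := (Commute.conj_iff c).2 h1
    have h3 : c * (c⁻¹ * d * x * (c⁻¹ * d)⁻¹) * c⁻¹ = d * x * d⁻¹ := by group
    rwa [h3] at h2
  have hn : ∀ y ∈ S, y ^ (p ^ k) = 1 := by
    rintro y ⟨c, hc, rfl⟩
    rw [conj_pow, ← hk, pow_orderOf_eq_one]; simp
  set A : Subgroup G := Subgroup.closure S with hA
  have hAp : IsPGroup p A := by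
    rintro ⟨y, hy⟩
    refine ⟨k, ?_⟩
    apply Subtype.ext
    simpa using pow_eq_one_of_closure hcomm hn y hy
  have hconj : ∀ g ∈ P, ∀ y ∈ A, g * y * g⁻¹ ∈ A := by
    intro g hg y hy
    induction hy using Subgroup.closure_induction with
    | mem y hy =>
      obtain ⟨c, hc, rfl⟩ := hy
      apply Subgroup.subset_closure
      exact ⟨g * c, P.mul_mem hg hc, by group⟩
    | one => simp
    | mul a b ha hb iha ihb =>
      have : g * (a * b) * g⁻¹ = (g * a * g⁻¹) * (g * b * g⁻¹) := by group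
      rw [this]; exact A.mul_mem iha ihb
    | inv a ha iha =>
      have : g * a⁻¹ * g⁻¹ = (g * a * g⁻¹)⁻¹ := by group
      rw [this]; exact A.inv_mem iha
  have hnorm : (P : Subgroup G) ≤ Subgroup.normalizer (A : Set G) := by
    intro g hg
    rw [Subgroup.mem_normalizer_iff]
    intro y
    constructor
    · exact hconj g hg y
    · intro hy
      have := hconj g⁻¹ (P.inv_mem hg) _ hy
      have h2 : g⁻¹ * (g * y * g⁻¹) * g⁻¹⁻¹ = y := by group
      rwa [h2] at this
  have hsup : IsPGroup p ((P : Subgroup G) ⊔ A : Subgroup G) :=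
    IsPGroup.to_sup_of_normal_right' P.isPGroup' hAp hnorm
  have heq : ((P : Subgroup G) ⊔ A : Subgroup G) = P := P.is_maximal' hsup le_sup_left
  have hxA : x ∈ A := Subgroup.subset_closure ⟨1, P.one_mem, by simp⟩
  have : x ∈ ((P : Subgroup G) ⊔ A : Subgroup G) := (le_sup_right : A ≤ _) hxA
  rw [heq] at this
  exact this

end Cfsg.Agent.Lib.Helper96TiPM
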