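import Cfsg.Agent.Lib.Helper16TiC
import Cfsg.Agent.Lib.Helper96TiPM
import Cfsg.Agent.Lib.Helper1Fitting
import Cfsg.Agent.Lib.Helper31Nilpotent
import Mathlib

/-! PROJECT 4064, piece `TS`. -/

set_option autoImplicit false

namespace Cfsg.Agent.Lib.Helper17TiTS

open Cfsg Cfsg.Agent.Helper16Ti

variable {G : Type*} [Group G] [Finite G]

theorem no_three_step (h : TIC G) (p : ℕ) (hp : p.Prime) : ¬ Cfsg.IsThreeStepGroup p G := by
  rintro ⟨hne, A, -, -, -, -, -, htop, ⟨n, hn⟩, -, -⟩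
  have : Fact p.Prime := ⟨hp⟩
  have hHn : (pCore p G).Normal := Cfsg.Agent.Lib.Helper1Fitting.pCore_normal p
  have hHp : IsPGroup p (pCore p G) := Cfsg.Agent.Lib.Helper1Fitting.pCore_isPGroup p
  obtain ⟨P⟩ : Nonempty (Sylow p G) := inferInstance
  have hHP : pCore p G ≤ P := hHp.le_sylow_of_normal P
  -- a central element of `P` in `H`
  have hnil : Group.IsNilpotent (P : Subgroup G) := P.2.isNilpotent
  have hsn : ((pCore p G).subgroupOf (P : Subgroup G)).Normal := inferInstance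
  have hsne : (pCore p G).subgroupOf (P : Subgroup G) ≠ ⊥ := by
    intro h0
    rw [Subgroup.subgroupOf_eq_bot, disjoint_iff, inf_eq_left.2 hHP] at h0
    exact hne h0
  obtain ⟨z, hzH, hzc, hz1⟩ :=
    Cfsg.Agent.Lib.Helper31Nilpotent.exists_center_mem_of_normal
      ((pCore p G).subgroupOf (P : Subgroup G)) hsne
  have hzH' : (z : G) ∈ pCore p G := Subgroup.mem_subgroupOf.1 hzH
  have hz1' : (z : G) ≠ 1 := fun h0 => hz1 (Subtype.ext h0)
  have hzP : ∀ x ∈ P, Commute x (z : G) := by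
    intro x hx
    exact congrArg Subtype.val ((Subgroup.mem_center_iff.1 hzc) ⟨x, hx⟩)
  have hnorm : ∀ g : G, g ∈ Subgroup.normalizer
      ((Subgroup.centralizer ({(z : G)} : Set G) : Subgroup G) : Set G) := by
    intro g
    have hxH : g⁻¹ * (z : G) * g ∈ pCore p G := by
      have := hHn.conj_mem _ hzH' g⁻¹
      rwa [inv_inv] at this
    apply h.norm' (x := g⁻¹ * (z : G) * g) (y := (z : G))
    · intro h0
      apply hz1'
      have : (z : G) = g * (g⁻¹ * (z : G) * g) * g⁻¹ := by group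
      rw [this, h0]
      group
    · exact hzP _ (hHP hxH)
    · have : g * (g⁻¹ * (z : G) * g) * g⁻¹ = (z : G) := by group
      rw [this]
  have hPn : (P : Subgroup G).Normal := by
    constructor
    intro u hu g
    apply Cfsg.Agent.Lib.Helper96TiPM.p_mem h P hz1' hzP
      (conj_comm_of_mem_norm (hnorm g) (hzP u hu))
    obtain ⟨k, hk⟩ := (IsPGroup.iff_orderOf.1 P.2) ⟨u, hu⟩
    refine ⟨k, ?_⟩
    rw [Subgroup.orderOf_mk] at hk
    rw [← hk]
    exact orderOf_injective (MulAut.conj g).toMonoidHom (MulAut.conj g).injective u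
  have hPH : (P : Subgroup G) ≤ pCore p G := Cfsg.Agent.Lib.Helper1Fitting.le_pCore hPn P.2
  have hdvd : (pCore p G ⊔ A).index ∣ (P : Subgroup G).index :=
    Subgroup.index_dvd_of_le (hPH.trans le_sup_left)
  apply htop
  rw [← Subgroup.index_eq_one, hn]
  rcases Nat.eq_zero_or_pos n with h0 | h0
  · rw [h0, pow_zero]
  · exfalso
    apply P.not_dvd_index
    refine dvd_trans ?_ hdvd
    rw [hn]
    exact dvd_pow_self p h0.ne'

end Cfsg.Agent.Lib.Helper17TiTS
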