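import Mathlib
import Cfsg.Prelude.Def_Classical
import Cfsg.Prelude.Def_ClassicalGeometry
import Cfsg.Agent.Lib.Helper49Orth
import Cfsg.Agent.Lib.Helper49Hyp
import Cfsg.Agent.Lib.Helper49Eich
import Cfsg.Agent.Lib.Helper49Geo
import Cfsg.Agent.Lib.Helper49EichGen

set_option autoImplicit false
set_option linter.unusedSectionVars false

/-! An additive map commuting with all Eichler transformations is a scalar (helper18). -/

namespace Cfsg.Agent.Lib.Helper18BalA

open scoped Matrix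
open Module
open Cfsg.Agent.Lib.Helper49Orth Cfsg.Agent.Lib.Helper49Hyp Cfsg.Agent.Lib.Helper18Hyp
  Cfsg.Agent.Lib.Helper49Eich Cfsg.Agent.Lib.Helper49Geo Cfsg.Agent.Lib.Helper49EichGen
  Cfsg.Agent.Lib.Helper49CharTwoA

variable {F : Type*} [Field F]
variable {ι : Type} [Fintype ι] [DecidableEq ι] (Q : QuadraticForm F (ι → F))

local notation "𝐁" => QuadraticMap.polar (DFunLike.coe Q)
local notation:max W "ᗮ" => LinearMap.BilinForm.orthogonal (QuadraticMap.polarBilin Q) W

/-- `T` commutes with all Eichler transformations. -/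
def CommE (T : (ι → F) →+ (ι → F)) : Prop :=
  ∀ e w : ι → F, Q e = 0 → 𝐁 e w = 0 → ∀ x,
    T ((((E Q e w : ↥(Cfsg.isometryGroup F ⇑Q)) : Matrix.GeneralLinearGroup ι F) : Matrix ι ι F) *ᵥ x)
      = (((E Q e w : ↥(Cfsg.isometryGroup F ⇑Q)) : Matrix.GeneralLinearGroup ι F) : Matrix ι ι F) *ᵥ T x

/-- A hyperbolic pair together with two non-orthogonal vectors of its orthogonal complement. -/
structure Frame (e f w₀ w₁ : ι → F) : Prop where
  he : Q e = 0
  hf : Q f = 0
  hef : 𝐁 e f = 1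
  e0 : 𝐁 e w₀ = 0
  e1 : 𝐁 e w₁ = 0
  f0 : 𝐁 f w₀ = 0
  f1 : 𝐁 f w₁ = 0
  h01 : 𝐁 w₀ w₁ ≠ 0

variable {Q}

theorem Frame.symm {e f w₀ w₁ : ι → F} (H : Frame Q e f w₀ w₁) : Frame Q f e w₀ w₁ :=
  ⟨H.hf, H.he, by rw [QuadraticMap.polar_comm]; exact H.hef, H.f0, H.f1, H.e0, H.e1, H.h01⟩

theorem CommE.D {T : (ι → F) →+ (ι → F)} (hT : CommE Q T) {e w : ι → F} (he : Q e = 0)
    (hw : 𝐁 e w = 0) (x : ι → F) :
    T ((𝐁 x w - Q w * 𝐁 x e) • e - 𝐁 x e • w)
      = (𝐁 (T x) w - Q w * 𝐁 (T x) e) • e - 𝐁 (T x) e • w := by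
  have h := hT e w he hw x
  rw [E_apply Q he hw, E_apply Q he hw, add_sub_assoc, add_sub_assoc, map_add] at h
  exact add_left_cancel h

theorem Frame.e_ne {e f w₀ w₁ : ι → F} (H : Frame Q e f w₀ w₁) : e ≠ 0 := by
  rintro rfl
  have := H.hef
  simp at this

/-- `T` stabilises the singular line `F e`. -/
theorem fix_line (hQ : (QuadraticMap.polarBilin Q).Nondegenerate) {T : (ι → F) →+ (ι → F)}
    (hT : CommE Q T) {e f w₀ w₁ : ι → F} (H : Frame Q e f w₀ w₁) (α : F) :
    ∃ c : F, T (α • e) = c • e := by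
  have hee : 𝐁 e e = 0 := polar_self_of_singular Q H.he
  have key : ∀ w, 𝐁 e w = 0 →
      (𝐁 (T (α • e)) w - Q w * 𝐁 (T (α • e)) e) • e - 𝐁 (T (α • e)) e • w = 0 := by
    intro w hw
    rw [← hT.D H.he hw, QuadraticMap.polar_smul_left, QuadraticMap.polar_smul_left, hw, hee]
    simp
  have h1 : 𝐁 (T (α • e)) e = 0 := by
    have h := congrArg (fun z => 𝐁 z w₁) (key w₀ H.e0)
    simp only [QuadraticMap.polar_sub_left, QuadraticMap.polar_smul_left, H.e1, smul_eq_mul,
      mul_zero, zero_sub, QuadraticMap.polar_zero_left, neg_eq_zero] at h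
    exact (mul_eq_zero.1 h).resolve_right H.h01
  have h2 : T (α • e) ∈ Submodule.span F {e} := by
    apply mem_span_of_orth Q hQ
    intro w hw
    have h := key w hw
    rw [h1, mul_zero, sub_zero, zero_smul, sub_zero] at h
    exact (smul_eq_zero.1 h).resolve_right H.e_ne
  obtain ⟨c, hc⟩ := Submodule.mem_span_singleton.1 h2
  exact ⟨c, hc.symm⟩

/-- decomposition of a vector along a hyperbolic pair -/
theorem Frame.decomp {e f w₀ w₁ : ι → F} (H : Frame Q e f w₀ w₁) (x : ι → F) :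
    ∃ w, 𝐁 e w = 0 ∧ 𝐁 f w = 0 ∧ x = 𝐁 x f • e + 𝐁 x e • f + w := by
  have hee : 𝐁 e e = 0 := polar_self_of_singular Q H.he
  have hff : 𝐁 f f = 0 := polar_self_of_singular Q H.hf
  have hfe : 𝐁 f e = 1 := by rw [QuadraticMap.polar_comm]; exact H.hef
  refine ⟨x - 𝐁 x f • e - 𝐁 x e • f, ?_, ?_, by abel⟩
  · rw [QuadraticMap.polar_sub_right, QuadraticMap.polar_sub_right, QuadraticMap.polar_smul_right,
      QuadraticMap.polar_smul_right, hee, H.hef, QuadraticMap.polar_comm ⇑Q e x]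
    simp
  · rw [QuadraticMap.polar_sub_right, QuadraticMap.polar_sub_right, QuadraticMap.polar_smul_right,
      QuadraticMap.polar_smul_right, hff, hfe, QuadraticMap.polar_comm ⇑Q f x]
    simp

/-- **The additive lemma**: an additive map commuting with all Eichler transformations is a
scalar. -/
theorem scalar_of_commE (hQ : (QuadraticMap.polarBilin Q).Nondegenerate)
    {T : (ι → F) →+ (ι → F)} (hT : CommE Q T) {e f w₀ w₁ : ι → F} (H : Frame Q e f w₀ w₁) :
    ∃ c : F, ∀ x, T x = c • x := by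
  have hee : 𝐁 e e = 0 := polar_self_of_singular Q H.he
  have hff : 𝐁 f f = 0 := polar_self_of_singular Q H.hf
  have hfe : 𝐁 f e = 1 := by rw [QuadraticMap.polar_comm]; exact H.hef
  choose te hte using fix_line hQ hT H
  choose tf htf using fix_line hQ hT H.symm
  -- the image of `α w`
  have k1 : ∀ (w : ι → F), 𝐁 e w = 0 → 𝐁 f w = 0 → ∀ α : F,
      T (α • w) = tf α • w + (tf α * Q w - te (α * Q w)) • e := by
    intro w hew hfw α
    have h := hT.D H.he hew (α • f)
    rw [htf, QuadraticMap.polar_smul_left, QuadraticMap.polar_smul_left,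
      QuadraticMap.polar_smul_left, QuadraticMap.polar_smul_left, hfw, hfe] at h
    simp only [smul_eq_mul, mul_zero, mul_one, zero_sub] at h
    rw [map_sub, neg_smul, map_neg, mul_comm (Q w) α, hte] at h
    have h' : T (α • w) = -(te (α * Q w) • e) - (-(Q w * tf α) • e - tf α • w) := by
      rw [← h]; abel
    rw [h', sub_smul, neg_smul, mul_comm (Q w)]
    abel
  have k2 : ∀ (w : ι → F), 𝐁 e w = 0 → 𝐁 f w = 0 → ∀ α : F,
      T (α • w) = te α • w + (te α * Q w - tf (α * Q w)) • f := by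
    intro w hew hfw α
    have h := hT.D H.hf hfw (α • e)
    rw [hte, QuadraticMap.polar_smul_left, QuadraticMap.polar_smul_left,
      QuadraticMap.polar_smul_left, QuadraticMap.polar_smul_left, hew, H.hef] at h
    simp only [smul_eq_mul, mul_zero, mul_one, zero_sub] at h
    rw [map_sub, neg_smul, map_neg, mul_comm (Q w) α, htf] at h
    have h' : T (α • w) = -(tf (α * Q w) • f) - (-(Q w * te α) • f - te α • w) := by
      rw [← h]; abel
    rw [h', sub_smul, neg_smul, mul_comm (Q w)]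
    abel
  -- comparison
  have k3 : ∀ (w : ι → F), 𝐁 e w = 0 → 𝐁 f w = 0 → ∀ α : F,
      tf α * Q w - te (α * Q w) = 0 := by
    intro w hew hfw α
    have h := (k1 w hew hfw α).symm.trans (k2 w hew hfw α)
    have h' := congrArg (fun z => 𝐁 z f) h
    simp only [QuadraticMap.polar_add_left, QuadraticMap.polar_smul_left, hff, H.hef,
      QuadraticMap.polar_comm ⇑Q w f, hfw, smul_eq_mul, mul_zero, mul_one, zero_add, add_zero]
      at h'
    exact h'
  have k4 : ∀ α, tf α = te α := by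
    intro α
    have h := (k1 w₀ H.e0 H.f0 α).symm.trans (k2 w₀ H.e0 H.f0 α)
    have h' := congrArg (fun z => 𝐁 z w₁) h
    simp only [QuadraticMap.polar_add_left, QuadraticMap.polar_smul_left, H.e1, H.f1,
      smul_eq_mul, mul_zero, add_zero] at h'
    exact mul_right_cancel₀ H.h01 h'
  have k5 : ∀ (w : ι → F), 𝐁 e w = 0 → 𝐁 f w = 0 → ∀ α : F, T (α • w) = te α • w := by
    intro w hew hfw α
    rw [k1 w hew hfw α, k3 w hew hfw α, zero_smul, add_zero, k4]
  have k6 : ∀ (w : ι → F), 𝐁 e w = 0 → 𝐁 f w = 0 → ∀ α : F, te (α * Q w) = te α * Q w := by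
    intro w hew hfw α
    have := k3 w hew hfw α
    rw [k4] at this
    exact (sub_eq_zero.1 this).symm
  have tadd : ∀ α β, te (α + β) = te α + te β := by
    intro α β
    have h : T ((α + β) • e) = T (α • e) + T (β • e) := by rw [add_smul, map_add]
    rw [hte, hte, hte, ← add_smul] at h
    have h' := congrArg (fun z => 𝐁 z f) h
    simp only [QuadraticMap.polar_smul_left, H.hef, smul_eq_mul, mul_one] at h'
    exact h'
  have k7 : ∀ β : F, te (β * 𝐁 w₀ w₁) = te 1 * (β * 𝐁 w₀ w₁) := by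
    intro β
    have hew : 𝐁 e (w₀ + β • w₁) = 0 := by
      rw [QuadraticMap.polar_add_right, QuadraticMap.polar_smul_right, H.e0, H.e1]; simp
    have hfw : 𝐁 f (w₀ + β • w₁) = 0 := by
      rw [QuadraticMap.polar_add_right, QuadraticMap.polar_smul_right, H.f0, H.f1]; simp
    have hew' : 𝐁 e (β • w₁) = 0 := by
      rw [QuadraticMap.polar_smul_right, H.e1]; simp
    have hfw' : 𝐁 f (β • w₁) = 0 := by
      rw [QuadraticMap.polar_smul_right, H.f1]; simp
    have h := k6 _ hew hfw 1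
    have h0 := k6 _ H.e0 H.f0 1
    have h1 := k6 _ hew' hfw' 1
    rw [one_mul] at h h0 h1
    rw [Q_add, QuadraticMap.polar_smul_right, tadd, tadd, h0, h1, smul_eq_mul] at h
    linear_combination h
  have k8 : ∀ δ : F, te δ = te 1 * δ := by
    intro δ
    have := k7 (δ / 𝐁 w₀ w₁)
    rwa [div_mul_cancel₀ _ H.h01] at this
  refine ⟨te 1, fun x => ?_⟩
  obtain ⟨w, hew, hfw, hx⟩ := H.decomp x
  have hw1 := k5 w hew hfw 1
  rw [one_smul] at hw1
  conv_lhs => rw [hx]
  rw [map_add, map_add, hte, htf, k4, hw1, k8 (𝐁 x f), k8 (𝐁 x e)]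
  conv_rhs => rw [hx]
  rw [smul_add, smul_add, smul_smul, smul_smul]

/-- Frames exist over finite fields in dimension at least three. -/
theorem exists_frame [Finite F] (hQ : (QuadraticMap.polarBilin Q).Nondegenerate)
    (hn : 3 ≤ Fintype.card ι) : ∃ e f w₀ w₁ : ι → F, Frame Q e f w₀ w₁ := by
  obtain ⟨e, -, he0, he⟩ := exists_singular_sub Q (P := ⊤) (by
    rw [finrank_top, Module.finrank_fintype_fun_eq_card]; exact hn)
  obtain ⟨f, hf, hef⟩ := exists_hyp_partner Q hQ he0 he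
  have hee : 𝐁 e e = 0 := polar_self_of_singular Q he
  have hff : 𝐁 f f = 0 := polar_self_of_singular Q hf
  have hfe : 𝐁 f e = 1 := by rw [QuadraticMap.polar_comm]; exact hef
  have h1 := finrank_orth_add Q hQ (Submodule.span F {e, f})
  have h2 := finrank_span_pair_le e f
  have h3 : 0 < finrank F ((Submodule.span F {e, f})ᗮ : Submodule F (ι → F)) := by omega
  obtain ⟨⟨w₀, hw₀⟩, hne⟩ := (Module.finrank_pos_iff_exists_ne_zero (R := F)).1 h3
  have hw0 : w₀ ≠ 0 := fun h => hne (Subtype.ext h)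
  obtain ⟨h4, h5⟩ := (mem_orth_span_pair Q).1 hw₀
  obtain ⟨y, hy⟩ := exists_polar_ne_zero Q hQ hw0
  refine ⟨e, f, w₀, y - 𝐁 y f • e - 𝐁 y e • f, he, hf, hef, h4, ?_, h5, ?_, ?_⟩
  · rw [QuadraticMap.polar_sub_right, QuadraticMap.polar_sub_right, QuadraticMap.polar_smul_right,
      QuadraticMap.polar_smul_right, hee, hef, QuadraticMap.polar_comm ⇑Q e y]
    simp
  · rw [QuadraticMap.polar_sub_right, QuadraticMap.polar_sub_right, QuadraticMap.polar_smul_right,
      QuadraticMap.polar_smul_right, hff, hfe, QuadraticMap.polar_comm ⇑Q f y]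
    simp
  · rw [QuadraticMap.polar_sub_right, QuadraticMap.polar_sub_right, QuadraticMap.polar_smul_right,
      QuadraticMap.polar_smul_right, QuadraticMap.polar_comm ⇑Q w₀ e, QuadraticMap.polar_comm ⇑Q w₀ f,
      h4, h5]
    simpa using hy

theorem scalar_of_commE' [Finite F] (hQ : (QuadraticMap.polarBilin Q).Nondegenerate)
    (hn : 3 ≤ Fintype.card ι) {T : (ι → F) →+ (ι → F)} (hT : CommE Q T) :
    ∃ c : F, ∀ x, T x = c • x := by
  obtain ⟨e, f, w₀, w₁, H⟩ := exists_frame hQ hn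
  exact scalar_of_commE hQ hT H

/-- An additive map invariant under all Eichler transformations vanishes. -/
theorem eq_zero_of_invE {M : Type*} [AddCommGroup M] {T : (ι → F) →+ M}
    (hT : ∀ e w : ι → F, Q e = 0 → 𝐁 e w = 0 → ∀ x,
      T ((((E Q e w : ↥(Cfsg.isometryGroup F ⇑Q)) : Matrix.GeneralLinearGroup ι F) :
        Matrix ι ι F) *ᵥ x) = T x)
    {e f w₀ w₁ : ι → F} (H : Frame Q e f w₀ w₁) (x : ι → F) : T x = 0 := by
  have hfe : 𝐁 f e = 1 := by rw [QuadraticMap.polar_comm]; exact H.hef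
  have hD : ∀ {e w : ι → F}, Q e = 0 → 𝐁 e w = 0 → ∀ x,
      T ((𝐁 x w - Q w * 𝐁 x e) • e - 𝐁 x e • w) = 0 := by
    intro e w he hw x
    have h := hT e w he hw x
    rw [E_apply Q he hw, add_sub_assoc, map_add] at h
    exact add_eq_left.1 h
  have h10 : 𝐁 w₁ w₀ ≠ 0 := by rw [QuadraticMap.polar_comm]; exact H.h01
  have he : ∀ α : F, T (α • e) = 0 := by
    intro α
    have h := hD H.he H.e0 ((α / 𝐁 w₁ w₀) • w₁)
    rw [QuadraticMap.polar_smul_left, QuadraticMap.polar_smul_left,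
      QuadraticMap.polar_comm ⇑Q w₁ e, H.e1] at h
    simp only [smul_eq_mul, mul_zero, sub_zero, zero_smul] at h
    rwa [div_mul_cancel₀ _ h10] at h
  have hf : ∀ α : F, T (α • f) = 0 := by
    intro α
    have h := hD H.hf H.f0 ((α / 𝐁 w₁ w₀) • w₁)
    rw [QuadraticMap.polar_smul_left, QuadraticMap.polar_smul_left,
      QuadraticMap.polar_comm ⇑Q w₁ f, H.f1] at h
    simp only [smul_eq_mul, mul_zero, sub_zero, zero_smul] at h
    rwa [div_mul_cancel₀ _ h10] at h
  have hw : ∀ w, 𝐁 e w = 0 → 𝐁 f w = 0 → T w = 0 := by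
    intro w hew hfw
    have h := hD H.he hew f
    rw [hfw, hfe, map_sub, he, one_smul, zero_sub, neg_eq_zero] at h
    exact h
  obtain ⟨w, hew, hfw, hx⟩ := H.decomp x
  rw [hx, map_add, map_add, he, hf, hw w hew hfw]
  simp

/-- A vector fixed by all Eichler transformations vanishes. -/
theorem eq_zero_of_fixE (hQ : (QuadraticMap.polarBilin Q).Nondegenerate) {y : ι → F}
    (hy : ∀ e w : ι → F, Q e = 0 → 𝐁 e w = 0 →
      (((E Q e w : ↥(Cfsg.isometryGroup F ⇑Q)) : Matrix.GeneralLinearGroup ι F) :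
        Matrix ι ι F) *ᵥ y = y)
    {e f w₀ w₁ : ι → F} (H : Frame Q e f w₀ w₁) : y = 0 := by
  have hD : ∀ {e w : ι → F}, Q e = 0 → 𝐁 e w = 0 →
      (𝐁 y w - Q w * 𝐁 y e) • e - 𝐁 y e • w = 0 := by
    intro e w he hw
    have h := hy e w he hw
    rw [E_apply Q he hw, add_sub_assoc] at h
    exact add_eq_left.1 h
  have h1 : 𝐁 y e = 0 := by
    have h := congrArg (fun z => 𝐁 z w₁) (hD H.he H.e0)
    simp only [QuadraticMap.polar_sub_left, QuadraticMap.polar_smul_left, H.e1, smul_eq_mul,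
      mul_zero, zero_sub, QuadraticMap.polar_zero_left, neg_eq_zero] at h
    exact (mul_eq_zero.1 h).resolve_right H.h01
  have h2 : 𝐁 y f = 0 := by
    have h := congrArg (fun z => 𝐁 z w₁) (hD H.hf H.f0)
    simp only [QuadraticMap.polar_sub_left, QuadraticMap.polar_smul_left, H.f1, smul_eq_mul,
      mul_zero, zero_sub, QuadraticMap.polar_zero_left, neg_eq_zero] at h
    exact (mul_eq_zero.1 h).resolve_right H.h01
  have h3 : ∀ w, 𝐁 e w = 0 → 𝐁 y w = 0 := by
    intro w hw
    have h := hD H.he hw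
    rw [h1, mul_zero, sub_zero, zero_smul, sub_zero] at h
    exact (smul_eq_zero.1 h).resolve_right H.e_ne
  apply hQ.1
  intro x
  obtain ⟨w, hew, hfw, hx⟩ := H.decomp x
  show 𝐁 y x = 0
  rw [hx, QuadraticMap.polar_add_right, QuadraticMap.polar_add_right,
    QuadraticMap.polar_smul_right, QuadraticMap.polar_smul_right, h1, h2, h3 w hew]
  simp

end Cfsg.Agent.Lib.Helper18BalA
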