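import Mathlib
import Cfsg.Prelude.Def_LieTypeDatum
import Cfsg.Agent.Lib.Helper49Orth

set_option autoImplicit false

namespace Cfsg.Agent.Lib.Helper51OrthAut

open Cfsg Matrix
open scoped MatrixGroups
open Cfsg.Agent.Lib.Helper49Orth

variable {ι : Type} [Fintype ι] [DecidableEq ι] {F : Type*} [Field F]

/-- Automorphisms act on the quotient by the centre. -/
def quotCenter (B : Type*) [Group B] : MulAut B →* MulAut (B ⧸ Subgroup.center B) where
  toFun e := QuotientGroup.congr _ _ e (Subgroup.characteristic_iff_map_eq.1 inferInstance e)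
  map_one' := by
    ext x
    induction x using QuotientGroup.induction_on
    rfl
  map_mul' a b := by
    ext x
    induction x using QuotientGroup.induction_on
    rfl

theorem quotCenter_mk (B : Type*) [Group B] (e : MulAut B) (x : B) :
    quotCenter B e (QuotientGroup.mk x) = QuotientGroup.mk (e x) := rfl

variable (Q : (ι → F) → F)

theorem mem_GO {g : GL ι F} : g ∈ Geo.quadSimilarityGroup (F := F) Q ↔
    ∃ c : Fˣ, ∀ v, Q ((g : Matrix ι ι F) *ᵥ v) = (c : F) * Q v := Iff.rfl

theorem O_le_GO : isometryGroup F Q ≤ Geo.quadSimilarityGroup (F := F) Q := by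
  intro g hg
  exact ⟨1, fun v => by rw [mem_iso.1 hg v, Units.val_one, one_mul]⟩

theorem conj_mem_O {g x : GL ι F} (hg : g ∈ Geo.quadSimilarityGroup (F := F) Q)
    (hx : x ∈ isometryGroup F Q) : g * x * g⁻¹ ∈ isometryGroup F Q := by
  obtain ⟨c, hc⟩ := hg
  rw [mem_iso]
  intro v
  have h1 : ((g * x * g⁻¹ : GL ι F) : Matrix ι ι F) *ᵥ v =
      (g : Matrix ι ι F) *ᵥ ((x : Matrix ι ι F) *ᵥ (((g⁻¹ : GL ι F) : Matrix ι ι F) *ᵥ v)) := by
    rw [Units.val_mul, Units.val_mul, Matrix.mulVec_mulVec, Matrix.mulVec_mulVec]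
  rw [h1, hc, mem_iso.1 hx, ← hc, Matrix.mulVec_mulVec, ← Units.val_mul, mul_inv_cancel,
    Units.val_one, Matrix.one_mulVec]

theorem GO_le_normalizer : Geo.quadSimilarityGroup (F := F) Q ≤
    Subgroup.normalizer ((isometryGroup F Q : Subgroup (GL ι F)) : Set (GL ι F)) := by
  intro g hg
  rw [Subgroup.mem_normalizer_iff]
  intro x
  constructor
  · exact fun hx => conj_mem_O Q hg hx
  · intro hx
    have := conj_mem_O Q (inv_mem hg) hx
    simpa [mul_assoc] using this

/-- The action of the conformal group on `PΩ(Q)`. -/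
noncomputable def cAut : ↥(Geo.quadSimilarityGroup (F := F) Q) →* MulAut (POmega F Q) :=
  (quotCenter _).comp ((MulAut.characteristic (Omega F Q)).comp
    ((isometryGroup F Q).normalizerMonoidHom.comp (Subgroup.inclusion (GO_le_normalizer Q))))

theorem cAut_mk (g : ↥(Geo.quadSimilarityGroup (F := F) Q)) (s s' : ↥(Omega F Q))
    (h : ((s' : ↥(isometryGroup F Q)) : GL ι F) = (g : GL ι F) * ((s : ↥(isometryGroup F Q)) : GL ι F) *
      (g : GL ι F)⁻¹) :
    cAut Q g (QuotientGroup.mk s) = QuotientGroup.mk s' := by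
  have : (MulAut.characteristic (Omega F Q)) ((isometryGroup F Q).normalizerMonoidHom
      (Subgroup.inclusion (GO_le_normalizer Q) g)) s = s' := by
    apply Subtype.ext
    apply Subtype.ext
    rw [h]
    rfl
  rw [← this]
  rfl

theorem exists_conj (g : ↥(Geo.quadSimilarityGroup (F := F) Q)) (s : ↥(Omega F Q)) :
    ∃ s' : ↥(Omega F Q), ((s' : ↥(isometryGroup F Q)) : GL ι F) =
      (g : GL ι F) * ((s : ↥(isometryGroup F Q)) : GL ι F) * (g : GL ι F)⁻¹ :=
  ⟨(MulAut.characteristic (Omega F Q)) ((isometryGroup F Q).normalizerMonoidHom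
      (Subgroup.inclusion (GO_le_normalizer Q) g)) s, rfl⟩

theorem induced_iff (g : ↥(Geo.quadSimilarityGroup (F := F) Q)) (β : POmega F Q ≃* POmega F Q) :
    IsInducedBySemilinearPOmega Q (g : GL ι F) (RingEquiv.refl F) β ↔ β = cAut Q g := by
  constructor
  · intro h
    ext x
    induction x using QuotientGroup.induction_on with
    | H s =>
      obtain ⟨s', hs'⟩ := exists_conj Q g s
      rw [cAut_mk Q g s s' hs']
      apply h s s'
      rw [hs', Units.val_mul, Units.val_mul]
      congr 2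
  · rintro rfl s s' h
    apply cAut_mk
    apply Units.ext
    rw [h, Units.val_mul, Units.val_mul]
    congr 2

theorem closure_induced (H : Subgroup (GL ι F)) (hH : H ≤ Geo.quadSimilarityGroup (F := F) Q) :
    autSubgroupOf (fun β : POmega F Q ≃* POmega F Q => ∃ g : GL ι F, g ∈ H ∧
      IsInducedBySemilinearPOmega Q g (RingEquiv.refl F) β) =
      (H.subgroupOf (Geo.quadSimilarityGroup (F := F) Q)).map (cAut Q) := by
  unfold autSubgroupOf
  have : {β : MulAut (POmega F Q) | ∃ g : GL ι F, g ∈ H ∧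
      IsInducedBySemilinearPOmega Q g (RingEquiv.refl F) β} =
      (((H.subgroupOf (Geo.quadSimilarityGroup (F := F) Q)).map (cAut Q) : Subgroup _) : Set _) := by
    ext β
    constructor
    · rintro ⟨g, hg, hβ⟩
      exact ⟨⟨g, hH hg⟩, hg, ((induced_iff Q ⟨g, hH hg⟩ β).1 hβ).symm⟩
    · rintro ⟨g, hg, rfl⟩
      exact ⟨g, hg, (induced_iff Q g _).2 rfl⟩
  rw [this, Subgroup.closure_eq]

theorem pgoAut_eq : pgoAut F Q = (cAut Q).range := by
  have := closure_induced Q (Geo.quadSimilarityGroup (F := F) Q) le_rfl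
  rw [Subgroup.subgroupOf_self, ← MonoidHom.range_eq_map] at this
  exact this

theorem poAut_eq : poAut F Q =
    ((isometryGroup F Q).subgroupOf (Geo.quadSimilarityGroup (F := F) Q)).map (cAut Q) :=
  closure_induced Q _ (O_le_GO Q)

theorem psoAut_eq : psoAut F Q =
    ((specialIsometryGL F Q).subgroupOf (Geo.quadSimilarityGroup (F := F) Q)).map (cAut Q) :=
  closure_induced Q _ (inf_le_left.trans (O_le_GO Q))

/-- `Ω(Q)` as a subgroup of `GL`. -/
def OmegaGL : Subgroup (GL ι F) := (Omega F Q).map (isometryGroup F Q).subtype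

theorem OmegaGL_le : OmegaGL Q ≤ isometryGroup F Q := by
  rintro _ ⟨x, _, rfl⟩
  exact x.2

theorem inn_eq : Inn (POmega F Q) =
    ((OmegaGL Q).subgroupOf (Geo.quadSimilarityGroup (F := F) Q)).map (cAut Q) := by
  ext β
  constructor
  · rintro ⟨x, rfl⟩
    induction x using QuotientGroup.induction_on with
    | H w =>
      refine ⟨⟨((w : ↥(isometryGroup F Q)) : GL ι F), O_le_GO Q (w : ↥(isometryGroup F Q)).2⟩,
        ⟨w, w.2, rfl⟩, ?_⟩
      ext y
      induction y using QuotientGroup.induction_on with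
      | H s =>
        rw [cAut_mk Q _ s (w * s * w⁻¹) rfl]
        rfl
  · rintro ⟨g, ⟨w, hw, hwg⟩, rfl⟩
    refine ⟨QuotientGroup.mk ⟨w, hw⟩, ?_⟩
    ext y
    induction y using QuotientGroup.induction_on with
    | H s =>
      rw [cAut_mk Q _ s (⟨w, hw⟩ * s * ⟨w, hw⟩⁻¹) (by
        have hwg' : (w : GL ι F) = (g : GL ι F) := hwg
        rw [← hwg']; rfl)]
      rfl

end Cfsg.Agent.Lib.Helper51OrthAut
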