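import Mathlib
import Cfsg.Prelude.Def_LieTypeDatum
import Cfsg.Agent.Lib.Helper49Orth
import Cfsg.Agent.Lib.Helper51OrthAut

/-!
# The semisimilarity group of a form and its action on `PΩ`
-/

set_option autoImplicit false
set_option linter.unusedSectionVars false

namespace Cfsg.Agent.Lib.Helper18GamA

open Cfsg Matrix
open scoped MatrixGroups
open Cfsg.Agent.Lib.Helper49Orth Cfsg.Agent.Lib.Helper51OrthAut

variable {ι : Type} [Fintype ι] [DecidableEq ι] {F : Type*} [Field F]

/-- Field automorphisms act entrywise on `GL`. -/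
def mapAut : (F ≃+* F) →* MulAut (GL ι F) where
  toFun σ := Units.mapEquiv (RingEquiv.mapMatrix σ).toMulEquiv
  map_one' := by
    ext g i j
    rfl
  map_mul' a b := by
    ext g i j
    rfl

theorem coe_mapAut (σ : F ≃+* F) (g : GL ι F) :
    ((mapAut σ g : GL ι F) : Matrix ι ι F) = (g : Matrix ι ι F).map σ := rfl

variable (ι F) in
/-- The group of invertible semilinear maps, as pairs. -/
abbrev GamL : Type _ := GL ι F ⋊[(mapAut : (F ≃+* F) →* MulAut (GL ι F))] (F ≃+* F)

/-- The semilinear action on vectors. -/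
def act (x : GamL ι F) (v : ι → F) : ι → F := (x.left : Matrix ι ι F) *ᵥ (fun i => x.right (v i))

theorem map_mulVec' (σ : F ≃+* F) (M : Matrix ι ι F) (v : ι → F) :
    (fun i => σ ((M *ᵥ v) i)) = (M.map σ) *ᵥ (fun i => σ (v i)) := by
  funext i
  exact RingHom.map_mulVec (σ : F →+* F) M v i

theorem act_mul (x y : GamL ι F) (v : ι → F) : act (x * y) v = act x (act y v) := by
  unfold act
  rw [map_mulVec', Matrix.mulVec_mulVec, SemidirectProduct.mul_left, SemidirectProduct.mul_right,
    Units.val_mul, coe_mapAut]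
  rfl

theorem act_one (v : ι → F) : act (1 : GamL ι F) v = v := by
  unfold act
  rw [SemidirectProduct.one_left, SemidirectProduct.one_right, Units.val_one, Matrix.one_mulVec]
  rfl

theorem act_inv_act (x : GamL ι F) (v : ι → F) : act x⁻¹ (act x v) = v := by
  rw [← act_mul, inv_mul_cancel, act_one]

theorem act_act_inv (x : GamL ι F) (v : ι → F) : act x (act x⁻¹ v) = v := by
  rw [← act_mul, mul_inv_cancel, act_one]

theorem act_add (x : GamL ι F) (v w : ι → F) : act x (v + w) = act x v + act x w := by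
  unfold act
  rw [← Matrix.mulVec_add]
  congr 1
  funext i
  simp

theorem act_smul (x : GamL ι F) (t : F) (v : ι → F) : act x (t • v) = x.right t • act x v := by
  unfold act
  rw [← Matrix.mulVec_smul]
  congr 1
  funext i
  simp

/-- Conjugation action of semilinear maps on `GL`. -/
def cj : GamL ι F →* MulAut (GL ι F) where
  toFun x := MulAut.conj x.left * mapAut x.right
  map_one' := by
    rw [SemidirectProduct.one_left, SemidirectProduct.one_right, map_one, map_one, one_mul]
  map_mul' x y := by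
    ext1 g
    simp only [SemidirectProduct.mul_left, SemidirectProduct.mul_right, map_mul, MulAut.mul_apply,
      MulAut.conj_apply, map_inv, _root_.mul_inv_rev, mul_assoc]

theorem cj_apply (x : GamL ι F) (g : GL ι F) : cj x g = x.left * mapAut x.right g * x.left⁻¹ := rfl

theorem cj_act (x : GamL ι F) (g : GL ι F) (v : ι → F) :
    ((cj x g : GL ι F) : Matrix ι ι F) *ᵥ act x v = act x ((g : Matrix ι ι F) *ᵥ v) := by
  unfold act
  rw [cj_apply, map_mulVec', Matrix.mulVec_mulVec, Matrix.mulVec_mulVec, ← coe_mapAut,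
    ← Units.val_mul, ← Units.val_mul]
  congr 2
  group

variable (Q : (ι → F) → F)

/-- The semisimilarity group. -/
def GamO : Subgroup (GamL ι F) where
  carrier := {x | IsSemisimilarityPair Q x.left x.right}
  one_mem' := ⟨1, fun v => by
    have := act_one (ι := ι) (F := F) v
    unfold act at this
    rw [this]
    simp⟩
  mul_mem' := by
    rintro x y ⟨c, hc⟩ ⟨d, hd⟩
    refine ⟨c * Units.map (x.right : F →* F) d, fun v => ?_⟩
    have h1 := act_mul x y v
    have hc' : ∀ v, Q (act x v) = (c : F) * x.right (Q v) := hc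
    have hd' : ∀ v, Q (act y v) = (d : F) * y.right (Q v) := hd
    change Q (act (x * y) v) = _
    rw [h1, hc', hd', map_mul, SemidirectProduct.mul_right, Units.val_mul, mul_assoc]
    rfl
  inv_mem' := by
    rintro x ⟨c, hc⟩
    refine ⟨Units.map (x⁻¹.right : F →* F) c⁻¹, fun v => ?_⟩
    have hc' : ∀ v, Q (act x v) = (c : F) * x.right (Q v) := hc
    change Q (act x⁻¹ v) = _
    have h1 := hc' (act x⁻¹ v)
    rw [act_act_inv] at h1
    rw [h1, map_mul, ← mul_assoc]
    have h2 : x⁻¹.right (x.right (Q (act x⁻¹ v))) = Q (act x⁻¹ v) := by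
      rw [SemidirectProduct.inv_right]
      exact RingEquiv.symm_apply_apply _ _
    rw [h2]
    have h3 : ((Units.map (x⁻¹.right : F →* F) c⁻¹ : Fˣ) : F) * x⁻¹.right (c : F) = 1 := by
      rw [Units.coe_map]
      change x⁻¹.right _ * _ = 1
      rw [← map_mul, Units.inv_mul, map_one]
    rw [h3, one_mul]

theorem mem_GamO {x : GamL ι F} : x ∈ GamO Q ↔ IsSemisimilarityPair Q x.left x.right := Iff.rfl

theorem mem_GamO' {x : GamL ι F} : x ∈ GamO Q ↔ ∃ c : Fˣ, ∀ v, Q (act x v) = (c : F) * x.right (Q v) :=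
  Iff.rfl

theorem cj_mem_O {x : GamL ι F} (hx : x ∈ GamO Q) {g : GL ι F} (hg : g ∈ isometryGroup F Q) :
    cj x g ∈ isometryGroup F Q := by
  obtain ⟨c, hc⟩ := (mem_GamO' Q).1 hx
  rw [mem_iso]
  intro v
  rw [← act_act_inv x v, cj_act, hc, hc, mem_iso.1 hg]

theorem cj_mem_O_iff {x : GamL ι F} (hx : x ∈ GamO Q) (g : GL ι F) :
    g ∈ isometryGroup F Q ↔ cj x g ∈ isometryGroup F Q := by
  refine ⟨cj_mem_O Q hx, fun h => ?_⟩
  have := cj_mem_O Q (inv_mem hx) h
  rwa [← MulAut.mul_apply, ← map_mul, inv_mul_cancel, map_one, MulAut.one_apply] at this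

/-- Restriction of an automorphism to an invariant subgroup. -/
def restr {G : Type*} [Group G] (H : Subgroup G) (e : MulAut G) (h : ∀ g, g ∈ H ↔ e g ∈ H) :
    MulAut ↥H where
  toFun g := ⟨e g, (h g).1 g.2⟩
  invFun g := ⟨e⁻¹ g, (h _).2 (by rw [MulAut.apply_inv_self]; exact g.2)⟩
  left_inv g := by
    apply Subtype.ext
    exact MulAut.inv_apply_self _ e g
  right_inv g := by
    apply Subtype.ext
    exact MulAut.apply_inv_self _ e g
  map_mul' a b := by
    apply Subtype.ext
    exact map_mul e _ _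

/-- The action of the semisimilarity group on the isometry group. -/
def resO : ↥(GamO Q) →* MulAut ↥(isometryGroup F Q) where
  toFun x := restr _ (cj (x : GamL ι F)) (cj_mem_O_iff Q x.2)
  map_one' := by
    ext1 g
    apply Subtype.ext
    change cj ((1 : ↥(GamO Q)) : GamL ι F) g = g
    rw [Subgroup.coe_one, map_one, MulAut.one_apply]
  map_mul' x y := by
    ext1 g
    apply Subtype.ext
    change cj ((x * y : ↥(GamO Q)) : GamL ι F) g = cj (x : GamL ι F) (cj (y : GamL ι F) g)
    rw [Subgroup.coe_mul, map_mul, MulAut.mul_apply]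

theorem coe_resO (x : ↥(GamO Q)) (g : ↥(isometryGroup F Q)) :
    ((resO Q x g : ↥(isometryGroup F Q)) : GL ι F) = cj (x : GamL ι F) g := rfl

/-- The action of the semisimilarity group on `PΩ(Q)`. -/
noncomputable def sAut : ↥(GamO Q) →* MulAut (POmega F Q) :=
  (quotCenter _).comp ((MulAut.characteristic (Omega F Q)).comp (resO Q))

/-- The action on `Ω`. -/
noncomputable def sOm : ↥(GamO Q) →* MulAut ↥(Omega F Q) :=
  (MulAut.characteristic (Omega F Q)).comp (resO Q)

theorem coe_sOm (x : ↥(GamO Q)) (s : ↥(Omega F Q)) :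
    (((sOm Q x s : ↥(Omega F Q)) : ↥(isometryGroup F Q)) : GL ι F) =
      cj (x : GamL ι F) ((s : ↥(isometryGroup F Q)) : GL ι F) := rfl

theorem sAut_mk' (x : ↥(GamO Q)) (s : ↥(Omega F Q)) :
    sAut Q x (QuotientGroup.mk s) = QuotientGroup.mk (sOm Q x s) := rfl

theorem sAut_mk (x : ↥(GamO Q)) (s s' : ↥(Omega F Q))
    (h : ((s' : ↥(isometryGroup F Q)) : GL ι F) =
      cj (x : GamL ι F) ((s : ↥(isometryGroup F Q)) : GL ι F)) :
    sAut Q x (QuotientGroup.mk s) = QuotientGroup.mk s' := by
  rw [sAut_mk']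
  congr 1
  apply Subtype.ext
  apply Subtype.ext
  rw [h, coe_sOm]

theorem induced_iff (x : ↥(GamO Q)) (β : POmega F Q ≃* POmega F Q) :
    IsInducedBySemilinearPOmega Q (x : GamL ι F).left (x : GamL ι F).right β ↔ β = sAut Q x := by
  constructor
  · intro h
    ext y
    induction y using QuotientGroup.induction_on with
    | H s =>
      rw [sAut_mk']
      apply h s
      rw [coe_sOm, cj_apply, Units.val_mul, Units.val_mul, coe_mapAut]
  · rintro rfl s s' h
    apply sAut_mk
    apply Units.ext
    rw [h, cj_apply, Units.val_mul, Units.val_mul, coe_mapAut]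

theorem gamma_eq_range : gammaPOmega F Q = (sAut Q).range := by
  unfold gammaPOmega autSubgroupOf
  have : {β : MulAut (POmega F Q) | ∃ (g : GL ι F) (σ : F ≃+* F), IsSemisimilarityPair Q g σ ∧
      IsInducedBySemilinearPOmega Q g σ β} = ((sAut Q).range : Set _) := by
    ext β
    constructor
    · rintro ⟨g, σ, h1, h2⟩
      exact ⟨⟨⟨g, σ⟩, h1⟩, ((induced_iff Q ⟨⟨g, σ⟩, h1⟩ β).1 h2).symm⟩
    · rintro ⟨x, rfl⟩
      exact ⟨_, _, x.2, (induced_iff Q x _).2 rfl⟩
  rw [this, Subgroup.closure_eq]

/-- The similarities inside the semisimilarity group. -/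
def inlO : ↥(Geo.quadSimilarityGroup (F := F) Q) →* ↥(GamO Q) where
  toFun g := ⟨SemidirectProduct.inl (g : GL ι F), by
    obtain ⟨c, hc⟩ := g.2
    exact ⟨c, fun v => hc v⟩⟩
  map_one' := by
    apply Subtype.ext
    exact map_one _
  map_mul' a b := by
    apply Subtype.ext
    exact map_mul _ _ _

theorem coe_inlO (g : ↥(Geo.quadSimilarityGroup (F := F) Q)) :
    ((inlO Q g : ↥(GamO Q)) : GamL ι F) = SemidirectProduct.inl (g : GL ι F) := rfl

theorem inlO_injective : Function.Injective (inlO Q) := by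
  intro a b h
  apply Subtype.ext
  exact SemidirectProduct.inl_injective (congrArg Subtype.val h)

theorem sAut_inlO (g : ↥(Geo.quadSimilarityGroup (F := F) Q)) : sAut Q (inlO Q g) = cAut Q g := by
  symm
  rw [← induced_iff]
  exact (Helper51OrthAut.induced_iff Q g _).2 rfl

/-- Projection to the field automorphisms. -/
def prO : ↥(GamO Q) →* (F ≃+* F) := SemidirectProduct.rightHom.comp (GamO Q).subtype

theorem prO_apply (x : ↥(GamO Q)) : prO Q x = (x : GamL ι F).right := rfl

theorem ker_prO : (prO Q).ker = (inlO Q).range := by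
  ext x
  constructor
  · intro hx
    have hx' : (x : GamL ι F).right = 1 := hx
    obtain ⟨c, hc⟩ := x.2
    refine ⟨⟨(x : GamL ι F).left, c, fun v => ?_⟩, ?_⟩
    · have := hc v
      rw [hx'] at this
      exact this
    · apply Subtype.ext
      apply SemidirectProduct.ext
      · rfl
      · exact hx'.symm
  · rintro ⟨g, rfl⟩
    rfl

/-- The field automorphisms, for forms that commute with them. -/
def inrO (hQ : ∀ (σ : F ≃+* F) (v : ι → F), Q (fun i => σ (v i)) = σ (Q v)) :
    (F ≃+* F) →* ↥(GamO Q) where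
  toFun σ := ⟨SemidirectProduct.inr σ, 1, fun v => by
    rw [SemidirectProduct.left_inr, SemidirectProduct.right_inr, Units.val_one, Matrix.one_mulVec,
      Units.val_one, one_mul, hQ]⟩
  map_one' := by
    apply Subtype.ext
    exact map_one _
  map_mul' a b := by
    apply Subtype.ext
    exact map_mul _ _ _

end Cfsg.Agent.Lib.Helper18GamA
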