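import Mathlib
import Cfsg.Prelude.Def_Classical
import Cfsg.Prelude.Def_ClassicalGeometry
import Cfsg.Agent.Lib.Helper49Orth
import Cfsg.Agent.Lib.Helper49Hyp
import Cfsg.Agent.Lib.Helper49Geo

/-!
# Additive maps preserving singular points are semisimilarities

Pure linear algebra for the determination of `Aut(PΩ)`.
-/

set_option autoImplicit false
set_option linter.unusedSectionVars false

namespace Cfsg.Agent.Lib.Helper51AO1

open scoped Matrix
open Module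
open Cfsg.Agent.Lib.Helper49Orth Cfsg.Agent.Lib.Helper49Hyp Cfsg.Agent.Lib.Helper18Hyp
  Cfsg.Agent.Lib.Helper49Geo Cfsg.Agent.Lib.Helper49CharTwoA

variable {F : Type*} [Field F]
variable {ι : Type} [Fintype ι] [DecidableEq ι] (Q : QuadraticForm F (ι → F))

local notation "𝐁" => QuadraticMap.polar (DFunLike.coe Q)
local notation:max W "ᗮ" => LinearMap.BilinForm.orthogonal (QuadraticMap.polarBilin Q) W

/-- Projection to the orthogonal complement of a hyperbolic pair. -/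
def pr (e f x : ι → F) : ι → F := x - 𝐁 x f • e - 𝐁 x e • f

section pr
variable {e f : ι → F}

theorem polar_e_pr (he : Q e = 0) (hf : Q f = 0) (hef : 𝐁 e f = 1) (x : ι → F) : 𝐁 e (pr Q e f x) = 0 := by
  unfold pr
  rw [QuadraticMap.polar_sub_right, QuadraticMap.polar_sub_right, QuadraticMap.polar_smul_right,
    QuadraticMap.polar_smul_right, polar_self_of_singular Q he, hef, QuadraticMap.polar_comm ⇑Q e x]
  simp

theorem polar_f_pr (he : Q e = 0) (hf : Q f = 0) (hef : 𝐁 e f = 1) (x : ι → F) : 𝐁 f (pr Q e f x) = 0 := by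
  unfold pr
  rw [QuadraticMap.polar_sub_right, QuadraticMap.polar_sub_right, QuadraticMap.polar_smul_right,
    QuadraticMap.polar_smul_right, polar_self_of_singular Q hf, QuadraticMap.polar_comm ⇑Q f e, hef,
    QuadraticMap.polar_comm ⇑Q f x]
  simp

theorem polar_pr_of_orth {y : ι → F} (hye : 𝐁 y e = 0) (hyf : 𝐁 y f = 0) (x : ι → F) :
    𝐁 y (pr Q e f x) = 𝐁 y x := by
  unfold pr
  rw [QuadraticMap.polar_sub_right, QuadraticMap.polar_sub_right, QuadraticMap.polar_smul_right,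
    QuadraticMap.polar_smul_right, hye, hyf]
  simp

theorem Q_pr (he : Q e = 0) (hf : Q f = 0) (hef : 𝐁 e f = 1) (x : ι → F) : Q (pr Q e f x) = Q x - 𝐁 x e * 𝐁 x f := by
  unfold pr
  rw [Q_sub, Q_sub, QuadraticMap.map_smul, QuadraticMap.map_smul, he, hf,
    QuadraticMap.polar_sub_left, QuadraticMap.polar_smul_right, QuadraticMap.polar_smul_right,
    QuadraticMap.polar_smul_left, QuadraticMap.polar_smul_right, hef]
  simp only [smul_eq_mul]
  ring

theorem pr_of_orth {x : ι → F} (hxe : 𝐁 x e = 0) (hxf : 𝐁 x f = 0) : pr Q e f x = x := by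
  unfold pr
  rw [hxe, hxf]
  simp

theorem eq_pr_add (x : ι → F) : x = 𝐁 x f • e + 𝐁 x e • f + pr Q e f x := by
  unfold pr
  abel

theorem pr_add (x y : ι → F) : pr Q e f (x + y) = pr Q e f x + pr Q e f y := by
  unfold pr
  rw [QuadraticMap.polar_add_left, QuadraticMap.polar_add_left, add_smul, add_smul]
  abel

theorem pr_smul (t : F) (x : ι → F) : pr Q e f (t • x) = t • pr Q e f x := by
  unfold pr
  rw [QuadraticMap.polar_smul_left, QuadraticMap.polar_smul_left, smul_sub, smul_sub, smul_smul,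
    smul_smul]
  rfl

end pr

/-- `W` admits an "orthogonal projection". -/
def HasProj (W : Submodule F (ι → F)) : Prop :=
  ∀ x, ∃ x' ∈ W, ∀ y ∈ W, 𝐁 y x' = 𝐁 y x

/-- `W` contains nonzero singular vectors orthogonal to any two given vectors. -/
def HasSing (W : Submodule F (ι → F)) : Prop :=
  ∀ y z, ∃ x ∈ W, x ≠ 0 ∧ Q x = 0 ∧ 𝐁 x y = 0 ∧ 𝐁 x z = 0

variable {Q}

theorem HasProj.partner (hQ : (QuadraticMap.polarBilin Q).Nondegenerate)
    {W : Submodule F (ι → F)} (hW : HasProj Q W) {y : ι → F} (hy : y ∈ W) (hy0 : y ≠ 0)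
    (hQy : Q y = 0) : ∃ z ∈ W, Q z = 0 ∧ 𝐁 y z = 1 := by
  obtain ⟨x, hx⟩ := exists_polar_ne_zero Q hQ hy0
  obtain ⟨x', hx'W, hx'⟩ := hW ((𝐁 y x)⁻¹ • x)
  have h1 : 𝐁 y x' = 1 := by
    rw [hx' y hy, QuadraticMap.polar_smul_right, smul_eq_mul, inv_mul_cancel₀ hx]
  refine ⟨x' + (- Q x') • y, W.add_mem hx'W (W.smul_mem _ hy), ?_, ?_⟩
  · rw [Q_add_smul', hQy, QuadraticMap.polar_comm ⇑Q x' y, h1]
    ring
  · rw [QuadraticMap.polar_add_right, QuadraticMap.polar_smul_right, polar_self_of_singular Q hQy,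
      h1]
    simp

theorem HasProj.inf {W : Submodule F (ι → F)} (hW : HasProj Q W) {e f : ι → F} (heW : e ∈ W)
    (hfW : f ∈ W) (he : Q e = 0) (hf : Q f = 0) (hef : 𝐁 e f = 1) :
    HasProj Q (W ⊓ (Submodule.span F {e, f})ᗮ) := by
  intro x
  obtain ⟨x', hx'W, hx'⟩ := hW x
  refine ⟨pr Q e f x', ⟨?_, ?_⟩, ?_⟩
  · unfold pr
    exact W.sub_mem (W.sub_mem hx'W (W.smul_mem _ heW)) (W.smul_mem _ hfW)
  · exact (mem_orth_span_pair Q).2 ⟨polar_e_pr Q he hf hef _, polar_f_pr Q he hf hef _⟩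
  · rintro y ⟨hyW, hy⟩
    have hy' := (mem_orth_span_pair Q).1 hy
    rw [polar_pr_of_orth Q (by rw [QuadraticMap.polar_comm]; exact hy'.1)
      (by rw [QuadraticMap.polar_comm]; exact hy'.2), hx' y hyW]

/-- Every vector of a subspace containing a hyperbolic pair is a sum of three singular vectors
of the subspace. -/
theorem exists_three_singular {W : Submodule F (ι → F)} {s s' : ι → F} (hsW : s ∈ W)
    (hs'W : s' ∈ W) (hs : Q s = 0) (hs' : Q s' = 0) (hss' : 𝐁 s s' = 1) {v : ι → F} (hv : v ∈ W) :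
    ∃ a ∈ W, ∃ b ∈ W, ∃ c ∈ W, Q a = 0 ∧ Q b = 0 ∧ Q c = 0 ∧ v = a + b + c := by
  set t := pr Q s s' v with ht
  have htW : t ∈ W := by
    rw [ht]; unfold pr
    exact W.sub_mem (W.sub_mem hv (W.smul_mem _ hsW)) (W.smul_mem _ hs'W)
  have hst : 𝐁 s t = 0 := polar_e_pr Q hs hs' hss' v
  have hs't : 𝐁 s' t = 0 := polar_f_pr Q hs hs' hss' v
  refine ⟨(𝐁 v s' - 1) • s, W.smul_mem _ hsW, (𝐁 v s + Q t) • s', W.smul_mem _ hs'W,
    s + (- Q t) • s' + t, W.add_mem (W.add_mem hsW (W.smul_mem _ hs'W)) htW, ?_, ?_, ?_, ?_⟩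
  · rw [QuadraticMap.map_smul, hs, smul_zero]
  · rw [QuadraticMap.map_smul, hs', smul_zero]
  · rw [Q_add, Q_add_smul', hs, hs', hss', QuadraticMap.polar_add_left,
      QuadraticMap.polar_smul_left, hst, hs't]
    simp
  · conv_lhs => rw [eq_pr_add Q (e := s) (f := s') v]
    rw [← ht]
    module


variable (Q) in
/-- An additive injective map on `W` preserving singular vectors and singular points. -/
structure Pres (W : Submodule F (ι → F)) (φ : (ι → F) → (ι → F)) : Prop where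
  add : ∀ v ∈ W, ∀ w ∈ W, φ (v + w) = φ v + φ w
  inj : ∀ v ∈ W, φ v = 0 → v = 0
  sing : ∀ y ∈ W, Q y = 0 → Q (φ y) = 0
  line : ∀ y ∈ W, Q y = 0 → ∀ t : F, ∃ s : F, φ (t • y) = s • φ y

variable {W : Submodule F (ι → F)} {φ : (ι → F) → (ι → F)}

theorem Pres.map_zero (h : Pres Q W φ) : φ 0 = 0 := by
  have := h.add 0 W.zero_mem 0 W.zero_mem
  rw [add_zero] at this
  exact left_eq_add.1 this

theorem Pres.map_neg (h : Pres Q W φ) {v : ι → F} (hv : v ∈ W) : φ (-v) = - φ v := by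
  have := h.add v hv (-v) (W.neg_mem hv)
  rw [add_neg_cancel, h.map_zero] at this
  exact (neg_eq_of_add_eq_zero_right this.symm).symm

theorem Pres.map_sub (h : Pres Q W φ) {v w : ι → F} (hv : v ∈ W) (hw : w ∈ W) :
    φ (v - w) = φ v - φ w := by
  rw [sub_eq_add_neg, h.add v hv _ (W.neg_mem hw), h.map_neg hw, sub_eq_add_neg]

theorem Pres.injOn (h : Pres Q W φ) {v w : ι → F} (hv : v ∈ W) (hw : w ∈ W)
    (heq : φ v = φ w) : v = w := by
  have := h.inj (v - w) (W.sub_mem hv hw) (by rw [h.map_sub hv hw, heq, sub_self])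
  exact sub_eq_zero.1 this

/-- The scalar function attached to a singular vector. -/
noncomputable def sg (φ : (ι → F) → (ι → F)) (y : ι → F) (t : F) : F := by
  classical exact if h : ∃ s : F, φ (t • y) = s • φ y then h.choose else 0

theorem Pres.sg_spec (h : Pres Q W φ) {y : ι → F} (hy : y ∈ W) (hQy : Q y = 0) (t : F) :
    φ (t • y) = sg φ y t • φ y := by
  unfold sg
  rw [dif_pos (h.line y hy hQy t)]
  exact (h.line y hy hQy t).choose_spec

theorem Pres.sg_unique (h : Pres Q W φ) {y : ι → F} (hy : y ∈ W) (hy0 : y ≠ 0) (hQy : Q y = 0)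
    {t s : F} (hs : φ (t • y) = s • φ y) : sg φ y t = s := by
  have h1 := h.sg_spec hy hQy t
  rw [hs] at h1
  have h2 : φ y ≠ 0 := fun h0 => hy0 (h.inj y hy h0)
  exact (smul_left_injective F h2 h1).symm

theorem Pres.sg_injective (h : Pres Q W φ) {y : ι → F} (hy : y ∈ W) (hy0 : y ≠ 0)
    (hQy : Q y = 0) : Function.Injective (sg φ y) := by
  intro t t' htt
  have h1 : φ (t • y) = φ (t' • y) := by rw [h.sg_spec hy hQy, h.sg_spec hy hQy, htt]
  have h2 := h.injOn (W.smul_mem _ hy) (W.smul_mem _ hy) h1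
  exact smul_left_injective F hy0 h2

theorem Pres.sg_surjective [Finite F] (h : Pres Q W φ) {y : ι → F} (hy : y ∈ W) (hy0 : y ≠ 0)
    (hQy : Q y = 0) : Function.Surjective (sg φ y) :=
  Finite.surjective_of_injective (h.sg_injective hy hy0 hQy)

theorem Pres.indep [Finite F] (h : Pres Q W φ) {y z : ι → F} (hy : y ∈ W) (hy0 : y ≠ 0)
    (hQy : Q y = 0) (hz : z ∈ W) (hyz : ∀ a : F, z ≠ a • y) {a b : F}
    (hab : a • φ y + b • φ z = 0) : a = 0 ∧ b = 0 := by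
  have hb : b = 0 := by
    by_contra hb
    obtain ⟨t, ht⟩ := h.sg_surjective hy hy0 hQy (-a / b)
    have h1 : φ z = φ (t • y) := by
      rw [h.sg_spec hy hQy, ht]
      have h3 : b • φ z = (-a) • φ y := by
        rw [neg_smul]; exact eq_neg_of_add_eq_zero_right hab
      calc φ z = b⁻¹ • (b • φ z) := by rw [smul_smul, inv_mul_cancel₀ hb, one_smul]
        _ = _ := by rw [h3, smul_smul]; congr 1; field_simp
    exact hyz t (h.injOn hz (W.smul_mem _ hy) h1)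
  subst hb
  rw [zero_smul, add_zero] at hab
  have h2 : φ y ≠ 0 := fun h0 => hy0 (h.inj y hy h0)
  exact ⟨(smul_eq_zero.1 hab).resolve_right h2, rfl⟩

theorem Pres.sg_eq_of_orth [Finite F] (h : Pres Q W φ) {y z : ι → F} (hy : y ∈ W) (hy0 : y ≠ 0)
    (hQy : Q y = 0) (hz : z ∈ W) (hQz : Q z = 0) (hyz0 : 𝐁 y z = 0) (hyz : ∀ a : F, z ≠ a • y) :
    sg φ y = sg φ z := by
  funext t
  have hyzW := W.add_mem hy hz
  have hQyz : Q (y + z) = 0 := by rw [Q_add, hQy, hQz, hyz0]; simp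
  have h1 := h.sg_spec hyzW hQyz t
  rw [smul_add, h.add _ (W.smul_mem _ hy) _ (W.smul_mem _ hz), h.sg_spec hy hQy,
    h.sg_spec hz hQz, h.add _ hy _ hz, smul_add] at h1
  have h2 : (sg φ y t - sg φ (y + z) t) • φ y + (sg φ z t - sg φ (y + z) t) • φ z = 0 := by
    rw [sub_smul, sub_smul]
    have := sub_eq_zero.2 h1
    rw [← this]; abel
  obtain ⟨h3, h4⟩ := h.indep hy hy0 hQy hz hyz h2
  rw [sub_eq_zero.1 h3, sub_eq_zero.1 h4]

theorem Pres.sg_eq_of_not_orth [Finite F] (hS : HasSing Q W) (h : Pres Q W φ) {y z : ι → F}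
    (hy : y ∈ W) (hy0 : y ≠ 0) (hQy : Q y = 0) (hz : z ∈ W) (hz0 : z ≠ 0) (hQz : Q z = 0)
    (hyz0 : 𝐁 y z ≠ 0) : sg φ y = sg φ z := by
  obtain ⟨x, hxW, hx0, hQx, hxy, hxz⟩ := hS y z
  have h1 : sg φ y = sg φ x := by
    apply h.sg_eq_of_orth hy hy0 hQy hxW hQx (by rw [QuadraticMap.polar_comm]; exact hxy)
    rintro a rfl
    rw [QuadraticMap.polar_smul_left, smul_eq_mul] at hxz
    rcases mul_eq_zero.1 hxz with h0 | h0
    · exact hx0 (by rw [h0, zero_smul])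
    · exact hyz0 h0
  have h2 : sg φ z = sg φ x := by
    apply h.sg_eq_of_orth hz hz0 hQz hxW hQx (by rw [QuadraticMap.polar_comm]; exact hxz)
    rintro a rfl
    rw [QuadraticMap.polar_smul_left, smul_eq_mul, QuadraticMap.polar_comm] at hxy
    rcases mul_eq_zero.1 hxy with h0 | h0
    · exact hx0 (by rw [h0, zero_smul])
    · exact hyz0 h0
  rw [h1, h2]

theorem Pres.sg_eq [Finite F] (hQ : (QuadraticMap.polarBilin Q).Nondegenerate)
    (hP : HasProj Q W) (hS : HasSing Q W) (h : Pres Q W φ) {y z : ι → F}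
    (hy : y ∈ W) (hy0 : y ≠ 0) (hQy : Q y = 0) (hz : z ∈ W) (hz0 : z ≠ 0) (hQz : Q z = 0) :
    sg φ y = sg φ z := by
  by_cases hyz0 : 𝐁 y z = 0
  · obtain ⟨y', hy'W, hQy', hyy'⟩ := hP.partner hQ hy hy0 hQy
    have hy'0 : y' ≠ 0 := by
      rintro rfl
      simp at hyy'
    have h1 : sg φ y = sg φ y' :=
      h.sg_eq_of_not_orth hS hy hy0 hQy hy'W hy'0 hQy' (by rw [hyy']; exact one_ne_zero)
    by_cases hy'z : 𝐁 y' z = 0
    · apply h.sg_eq_of_orth hy hy0 hQy hz hQz hyz0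
      rintro a rfl
      rw [QuadraticMap.polar_smul_right, QuadraticMap.polar_comm, hyy', smul_eq_mul, mul_one]
        at hy'z
      exact hz0 (by rw [hy'z, zero_smul])
    · rw [h1]
      exact h.sg_eq_of_not_orth hS hy'W hy'0 hQy' hz hz0 hQz hy'z
  · exact h.sg_eq_of_not_orth hS hy hy0 hQy hz hz0 hQz hyz0

theorem Pres.exists_sigma [Finite F] (hQ : (QuadraticMap.polarBilin Q).Nondegenerate)
    (hP : HasProj Q W) (hS : HasSing Q W) (h : Pres Q W φ) :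
    ∃ σ : F ≃+* F, ∀ y ∈ W, Q y = 0 → ∀ t, φ (t • y) = σ t • φ y := by
  obtain ⟨y₀, hy₀W, hy₀0, hQy₀, -, -⟩ := hS 0 0
  have hone : sg φ y₀ 1 = 1 := h.sg_unique hy₀W hy₀0 hQy₀ (by rw [one_smul, one_smul])
  have hzero : sg φ y₀ 0 = 0 :=
    h.sg_unique hy₀W hy₀0 hQy₀ (by rw [zero_smul, zero_smul, h.map_zero])
  have hadd : ∀ a b, sg φ y₀ (a + b) = sg φ y₀ a + sg φ y₀ b := by
    intro a b
    apply h.sg_unique hy₀W hy₀0 hQy₀
    rw [add_smul, h.add _ (W.smul_mem _ hy₀W) _ (W.smul_mem _ hy₀W), h.sg_spec hy₀W hQy₀,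
      h.sg_spec hy₀W hQy₀, add_smul]
  have hmul : ∀ a b, sg φ y₀ (a * b) = sg φ y₀ a * sg φ y₀ b := by
    intro a b
    by_cases hb : b = 0
    · rw [hb, mul_zero, hzero, mul_zero]
    · have hby : b • y₀ ∈ W := W.smul_mem _ hy₀W
      have hby0 : b • y₀ ≠ 0 := smul_ne_zero hb hy₀0
      have hQby : Q (b • y₀) = 0 := by rw [QuadraticMap.map_smul, hQy₀, smul_zero]
      apply h.sg_unique hy₀W hy₀0 hQy₀
      rw [mul_smul, h.sg_spec hby hQby, h.sg_spec hy₀W hQy₀,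
        h.sg_eq hQ hP hS hby hby0 hQby hy₀W hy₀0 hQy₀, smul_smul]
  let σ₀ : F →+* F :=
    { toFun := sg φ y₀
      map_one' := hone
      map_mul' := hmul
      map_zero' := hzero
      map_add' := hadd }
  refine ⟨RingEquiv.ofBijective σ₀ ⟨h.sg_injective hy₀W hy₀0 hQy₀,
    h.sg_surjective hy₀W hy₀0 hQy₀⟩, ?_⟩
  intro y hy hQy t
  change φ (t • y) = sg φ y₀ t • φ y
  by_cases hy0 : y = 0
  · rw [hy0, smul_zero, h.map_zero, smul_zero]
  · rw [h.sg_spec hy hQy, h.sg_eq hQ hP hS hy hy0 hQy hy₀W hy₀0 hQy₀]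


theorem Pres.polar_zero (h : Pres Q W φ) {y z : ι → F} (hy : y ∈ W) (hQy : Q y = 0) (hz : z ∈ W)
    (hQz : Q z = 0) (hyz : 𝐁 y z = 0) : 𝐁 (φ y) (φ z) = 0 := by
  have h1 := h.sing (y + z) (W.add_mem hy hz) (by rw [Q_add, hQy, hQz, hyz]; simp)
  rw [h.add _ hy _ hz, Q_add, h.sing y hy hQy, h.sing z hz hQz] at h1
  simpa using h1

/-- **Main theorem**: an additive injective map preserving singular points is a
semisimilarity. -/
theorem Pres.main [Finite F] (hQ : (QuadraticMap.polarBilin Q).Nondegenerate)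
    (hP : HasProj Q W) (hS : HasSing Q W) (h : Pres Q W φ) (hne : ∃ v ∈ W, Q (φ v) ≠ 0) :
    ∃ (σ : F ≃+* F) (c : F), c ≠ 0 ∧ (∀ v ∈ W, ∀ t, φ (t • v) = σ t • φ v) ∧
      ∀ v ∈ W, Q (φ v) = c * σ (Q v) := by
  obtain ⟨σ, hσ⟩ := h.exists_sigma hQ hP hS
  obtain ⟨e₂, he₂W, he₂0, hQe₂, -, -⟩ := hS 0 0
  obtain ⟨f₂, hf₂W, hQf₂, hef₂⟩ := hP.partner hQ he₂W he₂0 hQe₂
  have hlin : ∀ v ∈ W, ∀ t, φ (t • v) = σ t • φ v := by
    intro v hv t
    obtain ⟨a, ha, b, hb, c, hc, hQa, hQb, hQc, rfl⟩ :=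
      exists_three_singular he₂W hf₂W hQe₂ hQf₂ hef₂ hv
    rw [smul_add, smul_add, h.add _ (W.add_mem (W.smul_mem _ ha) (W.smul_mem _ hb)) _
      (W.smul_mem _ hc), h.add _ (W.smul_mem _ ha) _ (W.smul_mem _ hb), hσ a ha hQa, hσ b hb hQb,
      hσ c hc hQc, h.add _ (W.add_mem ha hb) _ hc, h.add _ ha _ hb, smul_add, smul_add]
  obtain ⟨e₃, he₃W, he₃0, hQe₃, he₃e₂, he₃f₂⟩ := hS e₂ f₂
  set W₂ : Submodule F (ι → F) := W ⊓ (Submodule.span F {e₂, f₂})ᗮ with hW₂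
  have hP₂ : HasProj Q W₂ := hP.inf he₂W hf₂W hQe₂ hQf₂ hef₂
  have he₃W₂ : e₃ ∈ W₂ := ⟨he₃W, (mem_orth_span_pair Q).2
    ⟨by rw [QuadraticMap.polar_comm]; exact he₃e₂, by rw [QuadraticMap.polar_comm]; exact he₃f₂⟩⟩
  obtain ⟨f₃, hf₃W₂, hQf₃, hef₃⟩ := hP₂.partner hQ he₃W₂ he₃0 hQe₃
  have horth : ∀ t ∈ W₂, 𝐁 (φ e₂) (φ t) = 0 ∧ 𝐁 (φ f₂) (φ t) = 0 := by
    intro t ht
    obtain ⟨a, ha, b, hb, c, hc, hQa, hQb, hQc, rfl⟩ :=
      exists_three_singular he₃W₂ hf₃W₂ hQe₃ hQf₃ hef₃ ht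
    have ha' := (mem_orth_span_pair Q).1 ha.2
    have hb' := (mem_orth_span_pair Q).1 hb.2
    have hc' := (mem_orth_span_pair Q).1 hc.2
    rw [h.add _ (W.add_mem ha.1 hb.1) _ hc.1, h.add _ ha.1 _ hb.1]
    constructor
    · rw [QuadraticMap.polar_add_right, QuadraticMap.polar_add_right,
        h.polar_zero he₂W hQe₂ ha.1 hQa ha'.1, h.polar_zero he₂W hQe₂ hb.1 hQb hb'.1,
        h.polar_zero he₂W hQe₂ hc.1 hQc hc'.1]
      simp
    · rw [QuadraticMap.polar_add_right, QuadraticMap.polar_add_right,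
        h.polar_zero hf₂W hQf₂ ha.1 hQa ha'.2, h.polar_zero hf₂W hQf₂ hb.1 hQb hb'.2,
        h.polar_zero hf₂W hQf₂ hc.1 hQc hc'.2]
      simp
  set c := 𝐁 (φ e₂) (φ f₂) with hc
  have hW₂Q : ∀ t ∈ W₂, Q (φ t) = c * σ (Q t) := by
    intro t ht
    have ht' := (mem_orth_span_pair Q).1 ht.2
    have hs : Q (e₂ + (- Q t) • f₂ + t) = 0 := by
      rw [Q_add, Q_add_smul', hQe₂, hQf₂, hef₂, QuadraticMap.polar_add_left,
        QuadraticMap.polar_smul_left, ht'.1, ht'.2]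
      simp
    have h1 := h.sing _ (W.add_mem (W.add_mem he₂W (W.smul_mem _ hf₂W)) ht.1) hs
    rw [h.add _ (W.add_mem he₂W (W.smul_mem _ hf₂W)) _ ht.1, h.add _ he₂W _ (W.smul_mem _ hf₂W),
      hlin _ hf₂W, Q_add, Q_add_smul', h.sing _ he₂W hQe₂, h.sing _ hf₂W hQf₂,
      QuadraticMap.polar_add_left, QuadraticMap.polar_smul_left, (horth t ht).1, (horth t ht).2,
      ← hc, _root_.map_neg] at h1
    simp only [smul_eq_mul, mul_zero, add_zero, zero_add] at h1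
    linear_combination h1
  have hmain : ∀ v ∈ W, Q (φ v) = c * σ (Q v) := by
    intro v hv
    set t := pr Q e₂ f₂ v with ht
    have htW : t ∈ W := by
      rw [ht]; unfold pr
      exact W.sub_mem (W.sub_mem hv (W.smul_mem _ he₂W)) (W.smul_mem _ hf₂W)
    have htW₂ : t ∈ W₂ := ⟨htW, (mem_orth_span_pair Q).2
      ⟨polar_e_pr Q hQe₂ hQf₂ hef₂ v, polar_f_pr Q hQe₂ hQf₂ hef₂ v⟩⟩
    have hQt : Q t = Q v - 𝐁 v e₂ * 𝐁 v f₂ := Q_pr Q hQe₂ hQf₂ hef₂ v
    have hv' : φ v = σ (𝐁 v f₂) • φ e₂ + σ (𝐁 v e₂) • φ f₂ + φ t := by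
      conv_lhs => rw [eq_pr_add Q (e := e₂) (f := f₂) v]
      rw [h.add _ (W.add_mem (W.smul_mem _ he₂W) (W.smul_mem _ hf₂W)) _ htW,
        h.add _ (W.smul_mem _ he₂W) _ (W.smul_mem _ hf₂W), hlin _ he₂W, hlin _ hf₂W]
    rw [hv', Q_add, Q_add, QuadraticMap.map_smul, QuadraticMap.map_smul, h.sing _ he₂W hQe₂,
      h.sing _ hf₂W hQf₂, QuadraticMap.polar_add_left, QuadraticMap.polar_smul_left,
      QuadraticMap.polar_smul_left, QuadraticMap.polar_smul_left, QuadraticMap.polar_smul_right,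
      (horth t htW₂).1, (horth t htW₂).2, ← hc, hW₂Q t htW₂, hQt, _root_.map_sub, _root_.map_mul]
    simp only [smul_eq_mul, mul_zero, add_zero, zero_add]
    ring
  refine ⟨σ, c, ?_, hlin, hmain⟩
  rintro hc0
  obtain ⟨v, hv, hv'⟩ := hne
  apply hv'
  rw [hmain v hv, hc0, zero_mul]

end Cfsg.Agent.Lib.Helper51AO1
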