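import Mathlib
import Cfsg.Prelude.Def_Classical
import Cfsg.Prelude.Def_ClassicalGeometry
import Cfsg.Agent.Lib.Helper49Orth
import Cfsg.Agent.Lib.Helper49Hyp
import Cfsg.Agent.Lib.Helper49Eich
import Cfsg.Agent.Lib.Helper49Geo
import Cfsg.Agent.Lib.Helper49EichGen
import Cfsg.Agent.Lib.Helper49Perfect
import Cfsg.Agent.Lib.Helper49Center
import Cfsg.Agent.Lib.Helper51AO1

/-!
# Root subgroups `Q_u` in `PΩ`: basic facts
-/

set_option autoImplicit false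
set_option linter.unusedSectionVars false

namespace Cfsg.Agent.Lib.Helper51AO2

open scoped Matrix
open Module
open Cfsg.Agent.Lib.Helper49Orth Cfsg.Agent.Lib.Helper49Hyp Cfsg.Agent.Lib.Helper18Hyp
  Cfsg.Agent.Lib.Helper49Eich Cfsg.Agent.Lib.Helper49Geo Cfsg.Agent.Lib.Helper49EichGen
  Cfsg.Agent.Lib.Helper49CharTwoA Cfsg.Agent.Lib.Helper49Perfect Cfsg.Agent.Lib.Helper49Center
  Cfsg.Agent.Lib.Helper51AO1

variable {F : Type*} [Field F] [Fintype F]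
variable {ι : Type} [Fintype ι] [DecidableEq ι] (Q : QuadraticForm F (ι → F))

local notation "𝐁" => QuadraticMap.polar (DFunLike.coe Q)
local notation:max W "ᗮ" => LinearMap.BilinForm.orthogonal (QuadraticMap.polarBilin Q) W
local notation:70 g:70 " ⋆ " x:71 => Matrix.mulVec (Units.val (Subtype.val g)) x

theorem E_mem (hQ : (QuadraticMap.polarBilin Q).Nondegenerate) (hn : 5 ≤ Fintype.card ι)
    (e w : ι → F) : E Q e w ∈ Cfsg.Omega F ⇑Q := by
  by_cases h : Q e = 0 ∧ 𝐁 e w = 0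
  · exact E_mem_Omega Q hQ hn h.1 h.2
  · unfold E
    rw [dif_neg h]
    exact Subgroup.one_mem _

/-- `E(e,w)` as an element of `Ω`. -/
noncomputable def EO (e w : ι → F) : ↥(Cfsg.Omega F ⇑Q) := by
  classical exact if h : E Q e w ∈ Cfsg.Omega F ⇑Q then ⟨E Q e w, h⟩ else 1

theorem coe_EO (hQ : (QuadraticMap.polarBilin Q).Nondegenerate) (hn : 5 ≤ Fintype.card ι)
    (e w : ι → F) : ((EO Q e w : ↥(Cfsg.Omega F ⇑Q)) : ↥(Cfsg.isometryGroup F ⇑Q)) = E Q e w := by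
  unfold EO
  rw [dif_pos (E_mem Q hQ hn e w)]

/-- The image of `E(e,w)` in `PΩ`. -/
noncomputable def Pb (e w : ι → F) : Cfsg.POmega F ⇑Q := QuotientGroup.mk (EO Q e w)

theorem E_fix {e w x : ι → F} (h1 : 𝐁 x e = 0) (h2 : 𝐁 x w = 0) : E Q e w ⋆ x = x := by
  by_cases h : Q e = 0 ∧ 𝐁 e w = 0
  · rw [E_apply Q h.1 h.2, h1, h2]
    simp
  · unfold E
    rw [dif_neg h, one_mulVec']

theorem finrank_span4_le (a b c d : ι → F) :
    finrank F ↥(Submodule.span F {a, b} ⊔ Submodule.span F {c, d}) ≤ 4 := by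
  have h1 := Submodule.finrank_add_le_finrank_add_finrank (Submodule.span F {a, b})
    (Submodule.span F {c, d})
  have h2 := finrank_span_pair_le a b
  have h3 := finrank_span_pair_le c d
  omega

theorem mem_orth_span4 {a b c d x : ι → F}
    (hx : x ∈ (Submodule.span F {a, b} ⊔ Submodule.span F {c, d})ᗮ) :
    𝐁 a x = 0 ∧ 𝐁 b x = 0 ∧ 𝐁 c x = 0 ∧ 𝐁 d x = 0 := by
  rw [mem_orth] at hx
  refine ⟨hx a ?_, hx b ?_, hx c ?_, hx d ?_⟩
  · exact Submodule.mem_sup_left (Submodule.subset_span (by simp))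
  · exact Submodule.mem_sup_left (Submodule.subset_span (by simp))
  · exact Submodule.mem_sup_right (Submodule.subset_span (by simp))
  · exact Submodule.mem_sup_right (Submodule.subset_span (by simp))

theorem exists_orth4 (hQ : (QuadraticMap.polarBilin Q).Nondegenerate) (hn : 5 ≤ Fintype.card ι)
    (a b c d : ι → F) : ∃ x, x ≠ 0 ∧ 𝐁 a x = 0 ∧ 𝐁 b x = 0 ∧ 𝐁 c x = 0 ∧ 𝐁 d x = 0 := by
  have h1 := finrank_orth_add Q hQ (Submodule.span F {a, b} ⊔ Submodule.span F {c, d})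
  have h2 := finrank_span4_le a b c d
  have h3 : 0 < finrank F ↥((Submodule.span F {a, b} ⊔ Submodule.span F {c, d})ᗮ) := by omega
  rw [Module.finrank_pos_iff_exists_ne_zero] at h3
  obtain ⟨x, hx⟩ := h3
  exact ⟨x, fun h => hx (Subtype.ext h), mem_orth_span4 Q x.2⟩

theorem exists_sing_orth4 (hQ : (QuadraticMap.polarBilin Q).Nondegenerate)
    (hn : 7 ≤ Fintype.card ι) (a b c d : ι → F) :
    ∃ x, x ≠ 0 ∧ Q x = 0 ∧ 𝐁 a x = 0 ∧ 𝐁 b x = 0 ∧ 𝐁 c x = 0 ∧ 𝐁 d x = 0 := by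
  obtain ⟨x, hx, hx0, hQx⟩ := exists_singular_orth Q hQ
    (S := Submodule.span F {a, b} ⊔ Submodule.span F {c, d})
    (by have := finrank_span4_le a b c d; omega)
  exact ⟨x, hx0, hQx, mem_orth_span4 Q hx⟩

/-- Lifting equalities from `PΩ` to `Ω` in the presence of a common value on a vector. -/
theorem eq_of_mk_eq (hQ : (QuadraticMap.polarBilin Q).Nondegenerate) (hn : 5 ≤ Fintype.card ι)
    {x y : ↥(Cfsg.Omega F ⇑Q)}
    (h : (QuotientGroup.mk x : Cfsg.POmega F ⇑Q) = QuotientGroup.mk y) {v : ι → F} (hv : v ≠ 0)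
    (hxy : (x : ↥(Cfsg.isometryGroup F ⇑Q)) ⋆ v = (y : ↥(Cfsg.isometryGroup F ⇑Q)) ⋆ v) :
    x = y := by
  rw [QuotientGroup.eq] at h
  have h1 : ((x⁻¹ * y : ↥(Cfsg.Omega F ⇑Q)) : ↥(Cfsg.isometryGroup F ⇑Q)) ⋆ v = v := by
    rw [Subgroup.coe_mul, Subgroup.coe_inv, mul_mulVec, ← hxy, inv_mulVec_mulVec]
  have h2 : (((x⁻¹ * y : ↥(Cfsg.Omega F ⇑Q)) : ↥(Cfsg.isometryGroup F ⇑Q)) :
      Matrix.GeneralLinearGroup ι F).1 = 1 := by
    rcases coe_eq_of_mem_center Q hQ hn h with h3 | h3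
    · exact h3
    · rw [h3, Matrix.neg_mulVec, Matrix.one_mulVec] at h1
      have h4 : (2 : F) • v = 0 := by
        rw [two_smul]
        nth_rewrite 1 [← h1]
        simp
      have h5 : (2 : F) = 0 := (smul_eq_zero.1 h4).resolve_right hv
      rw [h3]
      have h6 : (-1 : F) = 1 := by linear_combination -h5
      ext i j
      by_cases hij : i = j
      · subst hij; simp [h6]
      · simp [hij]
  have h7 : x⁻¹ * y = 1 := by
    apply Subtype.ext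
    apply Subtype.ext
    apply Units.ext
    exact h2
  exact (inv_mul_eq_one.1 h7)

theorem E_eq_of_Pb_eq (hQ : (QuadraticMap.polarBilin Q).Nondegenerate)
    (hn : 5 ≤ Fintype.card ι) {e w e' w' : ι → F} (h : Pb Q e w = Pb Q e' w') :
    E Q e w = E Q e' w' := by
  obtain ⟨x, hx0, h1, h2, h3, h4⟩ := exists_orth4 Q hQ hn e w e' w'
  have := eq_of_mk_eq Q hQ hn h hx0 (by
    rw [coe_EO Q hQ hn, coe_EO Q hQ hn,
      E_fix Q (by rw [QuadraticMap.polar_comm]; exact h1) (by rw [QuadraticMap.polar_comm]; exact h2),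
      E_fix Q (by rw [QuadraticMap.polar_comm]; exact h3)
        (by rw [QuadraticMap.polar_comm]; exact h4)])
  rw [← coe_EO Q hQ hn, ← coe_EO Q hQ hn e' w', this]

theorem Pb_eq_of_E_eq (hQ : (QuadraticMap.polarBilin Q).Nondegenerate)
    (hn : 5 ≤ Fintype.card ι) {e w e' w' : ι → F} (h : E Q e w = E Q e' w') :
    Pb Q e w = Pb Q e' w' := by
  unfold Pb
  congr 1
  apply Subtype.ext
  rw [coe_EO Q hQ hn, coe_EO Q hQ hn, h]


/-- If two Eichler transformations at independent singular vectors agree, the second parameter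
lies on the line through the two vectors. -/
theorem mem_span_of_E_eq (hQ : (QuadraticMap.polarBilin Q).Nondegenerate) {u v w w' : ι → F}
    (hu : Q u = 0) (huw : 𝐁 u w = 0) (hv : Q v = 0) (hvw' : 𝐁 v w' = 0)
    (huv : u ∉ Submodule.span F {v}) (h : E Q u w = E Q v w') : ∃ a b : F, w = a • u + b • v := by
  have hex : ∃ x, 𝐁 v x = 0 ∧ 𝐁 u x ≠ 0 := by
    by_contra hcon
    apply huv
    apply mem_span_of_orth Q hQ
    intro x hx
    by_contra hne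
    exact hcon ⟨x, hx, hne⟩
  obtain ⟨x, hvx, hux⟩ := hex
  have h1 : E Q u w ⋆ x = E Q v w' ⋆ x := by rw [h]
  rw [E_apply Q hu huw, E_apply Q hv hvw', QuadraticMap.polar_comm ⇑Q x v, hvx] at h1
  rw [QuadraticMap.polar_comm] at hux
  refine ⟨(𝐁 x u)⁻¹ * (𝐁 x w - Q w * 𝐁 x u), - (𝐁 x u)⁻¹ * 𝐁 x w', ?_⟩
  have h2 : 𝐁 x u • w = (𝐁 x w - Q w * 𝐁 x u) • u - 𝐁 x w' • v := by
    have h3 := sub_eq_zero.2 h1
    simp only [mul_zero, sub_zero, zero_smul] at h3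
    rw [← sub_eq_zero, ← neg_eq_zero, ← h3]
    abel
  calc w = (𝐁 x u)⁻¹ • (𝐁 x u • w) := by rw [smul_smul, inv_mul_cancel₀ hux, one_smul]
    _ = _ := by rw [h2, smul_sub, smul_smul, smul_smul, neg_mul, neg_smul, sub_eq_add_neg]

/-- The image of the root subgroup `Q_u` in `PΩ`. -/
def Qb (u : ι → F) : Set (Cfsg.POmega F ⇑Q) := {x | ∃ w, 𝐁 u w = 0 ∧ x = Pb Q u w}

theorem Pb_mem_Qb {u w : ι → F} (hw : 𝐁 u w = 0) : Pb Q u w ∈ Qb Q u := ⟨w, hw, rfl⟩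

theorem Pb_zero (hQ : (QuadraticMap.polarBilin Q).Nondegenerate) (hn : 5 ≤ Fintype.card ι)
    (u : ι → F) : Pb Q u 0 = 1 := by
  unfold Pb
  have : EO Q u 0 = 1 := by
    apply Subtype.ext
    rw [coe_EO Q hQ hn, E_zero]
    rfl
  rw [this]
  rfl

theorem Pb_mul (hQ : (QuadraticMap.polarBilin Q).Nondegenerate) (hn : 5 ≤ Fintype.card ι)
    {u w w' : ι → F} (hu : Q u = 0) (hw : 𝐁 u w = 0) (hw' : 𝐁 u w' = 0) :
    Pb Q u w * Pb Q u w' = Pb Q u (w + w') := by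
  unfold Pb
  rw [← QuotientGroup.mk_mul]
  congr 1
  apply Subtype.ext
  rw [Subgroup.coe_mul, coe_EO Q hQ hn, coe_EO Q hQ hn, coe_EO Q hQ hn, E_mul Q hu hw hw']

theorem Pb_conj (hQ : (QuadraticMap.polarBilin Q).Nondegenerate) (hn : 5 ≤ Fintype.card ι)
    (g : ↥(Cfsg.Omega F ⇑Q)) {u w : ι → F} (hu : Q u = 0) (hw : 𝐁 u w = 0) :
    (QuotientGroup.mk g : Cfsg.POmega F ⇑Q) * Pb Q u w * (QuotientGroup.mk g)⁻¹
      = Pb Q ((g : ↥(Cfsg.isometryGroup F ⇑Q)) ⋆ u) ((g : ↥(Cfsg.isometryGroup F ⇑Q)) ⋆ w) := by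
  unfold Pb
  rw [← QuotientGroup.mk_mul, ← QuotientGroup.mk_inv, ← QuotientGroup.mk_mul]
  congr 1
  apply Subtype.ext
  rw [Subgroup.coe_mul, Subgroup.coe_mul, Subgroup.coe_inv, coe_EO Q hQ hn, coe_EO Q hQ hn,
    E_conj Q _ hu hw]

theorem Qb_smul (hQ : (QuadraticMap.polarBilin Q).Nondegenerate) (hn : 5 ≤ Fintype.card ι)
    {u : ι → F} (hu : Q u = 0) {t : F} (ht : t ≠ 0) : Qb Q (t • u) = Qb Q u := by
  ext x
  constructor
  · rintro ⟨w, hw, rfl⟩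
    rw [QuadraticMap.polar_smul_left, smul_eq_mul] at hw
    have hw' : 𝐁 u w = 0 := (mul_eq_zero.1 hw).resolve_left ht
    exact ⟨t • w, by rw [QuadraticMap.polar_smul_right, hw', smul_zero],
      Pb_eq_of_E_eq Q hQ hn (E_smul Q hu hw' t)⟩
  · rintro ⟨w, hw, rfl⟩
    have hw' : 𝐁 u (t⁻¹ • w) = 0 := by rw [QuadraticMap.polar_smul_right, hw, smul_zero]
    refine ⟨t⁻¹ • w, by rw [QuadraticMap.polar_smul_left, hw', smul_zero],
      Pb_eq_of_E_eq Q hQ hn ?_⟩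
    rw [E_smul Q hu hw' t, smul_smul, mul_inv_cancel₀ ht, one_smul]

theorem Qb_conj (hQ : (QuadraticMap.polarBilin Q).Nondegenerate) (hn : 5 ≤ Fintype.card ι)
    (g : ↥(Cfsg.Omega F ⇑Q)) {u : ι → F} (hu : Q u = 0) (x : Cfsg.POmega F ⇑Q) :
    x ∈ Qb Q u ↔ (QuotientGroup.mk g : Cfsg.POmega F ⇑Q) * x * (QuotientGroup.mk g)⁻¹
      ∈ Qb Q ((g : ↥(Cfsg.isometryGroup F ⇑Q)) ⋆ u) := by
  constructor
  · rintro ⟨w, hw, rfl⟩
    rw [Pb_conj Q hQ hn g hu hw]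
    exact Pb_mem_Qb Q (by rw [polar_iso]; exact hw)
  · rintro ⟨w, hw, hx⟩
    have hu' : Q ((g : ↥(Cfsg.isometryGroup F ⇑Q)) ⋆ u) = 0 := by
      rw [iso_apply (Q := ⇑Q)]; exact hu
    have h1 := Pb_conj Q hQ hn g⁻¹ hu' hw
    rw [← hx, Subgroup.coe_inv, inv_mulVec_mulVec] at h1
    have h2 : x = Pb Q u ((g : ↥(Cfsg.isometryGroup F ⇑Q))⁻¹ ⋆ w) := by
      rw [← h1, QuotientGroup.mk_inv]
      group
    rw [h2]
    apply Pb_mem_Qb
    rw [← polar_iso Q (g : ↥(Cfsg.isometryGroup F ⇑Q)), mulVec_inv_mulVec]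
    exact hw

/-- `Q_u ⊆ Q_v` forces `u ∈ ⟨v⟩`. -/
theorem mem_span_of_Qb_subset (hQ : (QuadraticMap.polarBilin Q).Nondegenerate)
    (hn : 5 ≤ Fintype.card ι) {u v : ι → F} (hu : Q u = 0) (hv : Q v = 0)
    (h : Qb Q u ⊆ Qb Q v) : u ∈ Submodule.span F {v} := by
  by_contra huv
  have hle : (Submodule.span F {u, u})ᗮ ≤ Submodule.span F {u, v} := by
    intro w hw
    have hw' := ((mem_orth_span_pair Q).1 hw).1
    obtain ⟨w', hw'0, hE⟩ := h (Pb_mem_Qb Q hw')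
    obtain ⟨a, b, rfl⟩ := mem_span_of_E_eq Q hQ hu hw' hv hw'0 huv (E_eq_of_Pb_eq Q hQ hn hE)
    exact Submodule.mem_span_pair.2 ⟨a, b, rfl⟩
  have h1 := Submodule.finrank_mono hle
  have h2 := finrank_orth_add Q hQ (Submodule.span F {u, u})
  have h3 := finrank_span_pair_le u u
  have h4 := finrank_span_pair_le u v
  omega

theorem E_swap {e y : ι → F} (he : Q e = 0) (hy : Q y = 0) (hey : 𝐁 e y = 0) :
    E Q e y = E Q y (-e) := by
  apply ext_mulVec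
  intro x
  rw [E_apply Q he hey, E_apply Q hy (by rw [QuadraticMap.polar_neg_right,
    QuadraticMap.polar_comm, hey, neg_zero]), hy, QuadraticMap.map_neg, he,
    QuadraticMap.polar_neg_right]
  simp only [zero_mul, sub_zero, smul_neg, neg_smul]
  abel

/-- A hyperbolic pair. -/
structure Hyp (e f : ι → F) : Prop where
  he : Q e = 0
  hf : Q f = 0
  hef : 𝐁 e f = 1

variable {Q}

theorem Hyp.symm {e f : ι → F} (H : Hyp Q e f) : Hyp Q f e :=
  ⟨H.hf, H.he, by rw [QuadraticMap.polar_comm]; exact H.hef⟩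

theorem Hyp.e_ne {e f : ι → F} (H : Hyp Q e f) : e ≠ 0 := by
  rintro rfl
  have := H.hef
  simp at this

theorem Hyp.E_apply_f {e f y : ι → F} (H : Hyp Q e f) (hey : 𝐁 e y = 0) (hfy : 𝐁 f y = 0) :
    E Q e y ⋆ f = f - y - Q y • e := by
  rw [E_apply Q H.he hey, hfy, QuadraticMap.polar_comm ⇑Q f e, H.hef]
  simp only [mul_one, zero_sub, one_smul, neg_smul]
  abel

theorem Hyp.Pb_inj (hQ : (QuadraticMap.polarBilin Q).Nondegenerate)
    (hn : 5 ≤ Fintype.card ι) {e f y y' : ι → F} (H : Hyp Q e f) (hey : 𝐁 e y = 0)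
    (hfy : 𝐁 f y = 0) (hey' : 𝐁 e y' = 0) (hfy' : 𝐁 f y' = 0) (h : Pb Q e y = Pb Q e y') :
    y = y' := by
  have h1 : E Q e y ⋆ f = E Q e y' ⋆ f := by rw [E_eq_of_Pb_eq Q hQ hn h]
  rw [H.E_apply_f hey hfy, H.E_apply_f hey' hfy'] at h1
  have h2 : y - y' = (Q y' - Q y) • e := by
    rw [sub_smul, ← sub_eq_zero]
    have h3 := sub_eq_zero.2 h1
    rw [← neg_eq_zero, ← h3]
    abel
  have h4 : 𝐁 f (y - y') = Q y' - Q y := by
    rw [h2, QuadraticMap.polar_smul_right, QuadraticMap.polar_comm, H.hef, smul_eq_mul, mul_one]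
  rw [QuadraticMap.polar_sub_right, hfy, hfy', sub_zero] at h4
  rw [← h4, zero_smul] at h2
  exact sub_eq_zero.1 h2

end Cfsg.Agent.Lib.Helper51AO2
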