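import Mathlib
import Cfsg.Prelude.Def_Classical
import Cfsg.Prelude.Def_ClassicalGeometry
import Cfsg.Agent.Lib.Helper51AO1
import Cfsg.Agent.Lib.Helper51AO2

/-!
# The additive map attached to an automorphism of `PΩ` normalising a root subgroup
-/

set_option autoImplicit false
set_option linter.unusedSectionVars false

namespace Cfsg.Agent.Lib.Helper51AO3

open scoped Matrix
open Module
open Cfsg.Agent.Lib.Helper49Orth Cfsg.Agent.Lib.Helper49Hyp Cfsg.Agent.Lib.Helper18Hyp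
  Cfsg.Agent.Lib.Helper49Eich Cfsg.Agent.Lib.Helper49Geo Cfsg.Agent.Lib.Helper49EichGen
  Cfsg.Agent.Lib.Helper49CharTwoA Cfsg.Agent.Lib.Helper49Perfect Cfsg.Agent.Lib.Helper49Center
  Cfsg.Agent.Lib.Helper51AO1 Cfsg.Agent.Lib.Helper51AO2

variable {F : Type*} [Field F] [Fintype F]
variable {ι : Type} [Fintype ι] [DecidableEq ι] (Q : QuadraticForm F (ι → F))

local notation "𝐁" => QuadraticMap.polar (DFunLike.coe Q)
local notation:max W "ᗮ" => LinearMap.BilinForm.orthogonal (QuadraticMap.polarBilin Q) W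
local notation:70 g:70 " ⋆ " x:71 => Matrix.mulVec (Units.val (Subtype.val g)) x

/-- Every automorphism permutes the root subgroups `Q_u` (vector form). -/
def PtHyp : Prop := ∀ (β : MulAut (Cfsg.POmega F ⇑Q)) (u : ι → F), u ≠ 0 → Q u = 0 →
  ∃ u', u' ≠ 0 ∧ Q u' = 0 ∧ ∀ x, x ∈ Qb Q u ↔ β x ∈ Qb Q u'

/-- The orthogonal complement of a pair. -/
abbrev Wp (e f : ι → F) : Submodule F (ι → F) := (Submodule.span F {e, f})ᗮ

theorem mem_Wp {e f x : ι → F} : x ∈ Wp Q e f ↔ 𝐁 e x = 0 ∧ 𝐁 f x = 0 := mem_orth_span_pair Q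

variable {Q}

theorem hasProj_Wp {e f : ι → F} (H : Hyp Q e f) : HasProj Q (Wp Q e f) := by
  intro x
  refine ⟨pr Q e f x, (mem_Wp Q).2 ⟨polar_e_pr Q H.he H.hf H.hef x, polar_f_pr Q H.he H.hf H.hef x⟩,
    ?_⟩
  intro y hy
  have hy' := (mem_Wp Q).1 hy
  exact polar_pr_of_orth Q (by rw [QuadraticMap.polar_comm]; exact hy'.1)
    (by rw [QuadraticMap.polar_comm]; exact hy'.2) x

theorem hasSing_Wp (hQ : (QuadraticMap.polarBilin Q).Nondegenerate) (hn : 7 ≤ Fintype.card ι)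
    (e f : ι → F) : HasSing Q (Wp Q e f) := by
  intro y z
  obtain ⟨x, hx0, hQx, h1, h2, h3, h4⟩ := exists_sing_orth4 Q hQ hn e f y z
  exact ⟨x, (mem_Wp Q).2 ⟨h1, h2⟩, hx0, hQx, by rw [QuadraticMap.polar_comm]; exact h3,
    by rw [QuadraticMap.polar_comm]; exact h4⟩

theorem normalize {e f w : ι → F} (H : Hyp Q e f) (hw : 𝐁 e w = 0) :
    ∃ w₁ ∈ Wp Q e f, E Q e w₁ = E Q e w := by
  refine ⟨w + (- 𝐁 f w) • e, (mem_Wp Q).2 ⟨?_, ?_⟩, E_add_smul_self Q H.he hw _⟩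
  · rw [QuadraticMap.polar_add_right, QuadraticMap.polar_smul_right, hw,
      polar_self_of_singular Q H.he]
    simp
  · rw [QuadraticMap.polar_add_right, QuadraticMap.polar_smul_right,
      QuadraticMap.polar_comm ⇑Q f e, H.hef]
    simp

variable (Q) in
/-- The situation: `β` maps `Q_e` onto `Q_{e'}` and `φ` describes the map. -/
structure Sit (β : MulAut (Cfsg.POmega F ⇑Q)) (e f e' f' : ι → F) (φ : (ι → F) → (ι → F)) :
    Prop where
  H : Hyp Q e f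
  H' : Hyp Q e' f'
  hβ : ∀ x, x ∈ Qb Q e ↔ β x ∈ Qb Q e'
  hφW : ∀ y ∈ Wp Q e f, φ y ∈ Wp Q e' f'
  hφ : ∀ y ∈ Wp Q e f, β (Pb Q e y) = Pb Q e' (φ y)

theorem exists_phi (hQ : (QuadraticMap.polarBilin Q).Nondegenerate) (hn : 5 ≤ Fintype.card ι)
    {β : MulAut (Cfsg.POmega F ⇑Q)} {e f e' f' : ι → F} (H : Hyp Q e f) (H' : Hyp Q e' f')
    (hβ : ∀ x, x ∈ Qb Q e ↔ β x ∈ Qb Q e') : ∃ φ, Sit Q β e f e' f' φ := by
  have h1 : ∀ y, ∃ z, y ∈ Wp Q e f → (z ∈ Wp Q e' f' ∧ β (Pb Q e y) = Pb Q e' z) := by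
    intro y
    by_cases hy : y ∈ Wp Q e f
    · obtain ⟨w', hw', hE⟩ := (hβ _).1 (Pb_mem_Qb Q ((mem_Wp Q).1 hy).1)
      obtain ⟨w₁, hw₁, hE₁⟩ := normalize H' hw'
      exact ⟨w₁, fun _ => ⟨hw₁, by rw [hE]; exact (Pb_eq_of_E_eq Q hQ hn hE₁).symm⟩⟩
    · exact ⟨0, fun h => absurd h hy⟩
  choose φ hφ using h1
  exact ⟨φ, H, H', hβ, fun y hy => (hφ y hy).1, fun y hy => (hφ y hy).2⟩

section
variable {β : MulAut (Cfsg.POmega F ⇑Q)} {e f e' f' : ι → F} {φ : (ι → F) → (ι → F)}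

theorem Sit.uniq (hQ : (QuadraticMap.polarBilin Q).Nondegenerate) (hn : 5 ≤ Fintype.card ι)
    (S : Sit Q β e f e' f' φ) {y z : ι → F} (hy : y ∈ Wp Q e f) (hz : z ∈ Wp Q e' f')
    (h : β (Pb Q e y) = Pb Q e' z) : φ y = z := by
  have h1 := (mem_Wp Q).1 (S.hφW y hy)
  have h2 := (mem_Wp Q).1 hz
  exact S.H'.Pb_inj hQ hn h1.1 h1.2 h2.1 h2.2 (by rw [← S.hφ y hy, h])

theorem Sit.add (hQ : (QuadraticMap.polarBilin Q).Nondegenerate) (hn : 5 ≤ Fintype.card ι)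
    (S : Sit Q β e f e' f' φ) {y z : ι → F} (hy : y ∈ Wp Q e f) (hz : z ∈ Wp Q e f) :
    φ (y + z) = φ y + φ z := by
  apply S.uniq hQ hn (Submodule.add_mem _ hy hz) (Submodule.add_mem _ (S.hφW y hy) (S.hφW z hz))
  rw [← Pb_mul Q hQ hn S.H.he ((mem_Wp Q).1 hy).1 ((mem_Wp Q).1 hz).1, map_mul, S.hφ y hy,
    S.hφ z hz, Pb_mul Q hQ hn S.H'.he ((mem_Wp Q).1 (S.hφW y hy)).1 ((mem_Wp Q).1 (S.hφW z hz)).1]

theorem Sit.inj (hQ : (QuadraticMap.polarBilin Q).Nondegenerate) (hn : 5 ≤ Fintype.card ι)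
    (S : Sit Q β e f e' f' φ) {y : ι → F} (hy : y ∈ Wp Q e f) (h : φ y = 0) : y = 0 := by
  have h1 := S.hφ y hy
  rw [h, Pb_zero Q hQ hn, map_eq_one_iff β β.injective, ← Pb_zero Q hQ hn e] at h1
  have h2 := (mem_Wp Q).1 hy
  exact S.H.Pb_inj hQ hn h2.1 h2.2 (by simp) (by simp) h1

theorem Sit.surj (hQ : (QuadraticMap.polarBilin Q).Nondegenerate) (hn : 5 ≤ Fintype.card ι)
    (S : Sit Q β e f e' f' φ) {z : ι → F} (hz : z ∈ Wp Q e' f') : ∃ y ∈ Wp Q e f, φ y = z := by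
  have h1 : β (β⁻¹ (Pb Q e' z)) ∈ Qb Q e' := by
    rw [MulAut.apply_inv_self]
    exact Pb_mem_Qb Q ((mem_Wp Q).1 hz).1
  obtain ⟨w, hw, hE⟩ := (S.hβ _).2 h1
  obtain ⟨w₁, hw₁, hE₁⟩ := normalize S.H hw
  refine ⟨w₁, hw₁, S.uniq hQ hn hw₁ hz ?_⟩
  rw [Pb_eq_of_E_eq Q hQ hn hE₁, ← hE, MulAut.apply_inv_self]

theorem Sit.line (hQ : (QuadraticMap.polarBilin Q).Nondegenerate) (hn : 5 ≤ Fintype.card ι)
    (hpt : PtHyp Q) (S : Sit Q β e f e' f' φ) {y : ι → F} (hy : y ∈ Wp Q e f) (hy0 : y ≠ 0)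
    (hQy : Q y = 0) : ∃ y'', Q y'' = 0 ∧ ∀ t : F, ∃ b : F, φ (t • y) = b • y'' := by
  obtain ⟨y', hy'0, hQy', hβy⟩ := hpt β y hy0 hQy
  have hy12 := (mem_Wp Q).1 hy
  have hnot : e' ∉ Submodule.span F {y'} := by
    intro hmem
    obtain ⟨a, ha⟩ := Submodule.mem_span_singleton.1 hmem
    have ha0 : a ≠ 0 := by
      rintro rfl
      rw [zero_smul] at ha
      exact S.H'.e_ne ha.symm
    have hQb : Qb Q e' = Qb Q y' := by rw [← ha, Qb_smul Q hQ hn hQy' ha0]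
    have hsub : Qb Q y ⊆ Qb Q e := by
      intro x hx
      rw [S.hβ, hQb]
      exact (hβy x).1 hx
    obtain ⟨b, hb⟩ := Submodule.mem_span_singleton.1
      (mem_span_of_Qb_subset Q hQ hn hQy S.H.he hsub)
    have h3 : 𝐁 f y = b := by
      rw [← hb, QuadraticMap.polar_smul_right, QuadraticMap.polar_comm, S.H.hef, smul_eq_mul,
        mul_one]
    rw [hy12.2] at h3
    apply hy0
    rw [← hb, ← h3, zero_smul]
  have key : ∀ t : F, ∃ a b : F, φ (t • y) = a • e' + b • y' := by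
    intro t
    have hty : t • y ∈ Wp Q e f := Submodule.smul_mem _ _ hy
    have hye : 𝐁 y (-e) = 0 := by
      rw [QuadraticMap.polar_neg_right, QuadraticMap.polar_comm, hy12.1, neg_zero]
    have h1 : Pb Q e (t • y) ∈ Qb Q y := by
      have hE : E Q e (t • y) = E Q y (t • (-e)) := by
        rw [E_swap Q S.H.he (by rw [QuadraticMap.map_smul, hQy, smul_zero])
          (by rw [QuadraticMap.polar_smul_right, hy12.1, smul_zero]), E_smul Q hQy hye]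
      rw [Pb_eq_of_E_eq Q hQ hn hE]
      exact Pb_mem_Qb Q (by rw [QuadraticMap.polar_smul_right, hye, smul_zero])
    obtain ⟨w', hw', hE⟩ := (hβy _).1 h1
    rw [S.hφ _ hty] at hE
    exact mem_span_of_E_eq Q hQ S.H'.he ((mem_Wp Q).1 (S.hφW _ hty)).1 hQy' hw' hnot
      (E_eq_of_Pb_eq Q hQ hn hE)
  have key2 : ∀ t : F, ∃ b : F, φ (t • y) = b • (y' + (- 𝐁 f' y') • e') := by
    intro t
    obtain ⟨a, b, hab⟩ := key t
    have h1 := ((mem_Wp Q).1 (S.hφW _ (Submodule.smul_mem _ t hy))).2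
    rw [hab, QuadraticMap.polar_add_right, QuadraticMap.polar_smul_right,
      QuadraticMap.polar_smul_right, QuadraticMap.polar_comm ⇑Q f' e', S.H'.hef, smul_eq_mul,
      smul_eq_mul, mul_one] at h1
    refine ⟨b, ?_⟩
    rw [hab, eq_neg_of_add_eq_zero_left h1, smul_add, smul_smul]
    rw [add_comm]
    congr 2
    ring
  refine ⟨y' + (- 𝐁 f' y') • e', ?_, key2⟩
  obtain ⟨b, hb⟩ := key2 1
  rw [one_smul] at hb
  have hb0 : b ≠ 0 := by
    rintro rfl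
    rw [zero_smul] at hb
    exact hy0 (S.inj hQ hn hy hb)
  have h1 := ((mem_Wp Q).1 (S.hφW _ hy)).1
  rw [hb, QuadraticMap.polar_smul_right, QuadraticMap.polar_add_right,
    QuadraticMap.polar_smul_right, polar_self_of_singular Q S.H'.he, smul_zero, add_zero,
    smul_eq_mul] at h1
  have h2 : 𝐁 e' y' = 0 := (mul_eq_zero.1 h1).resolve_left hb0
  rw [Q_add_smul', hQy', S.H'.he, QuadraticMap.polar_comm ⇑Q y' e', h2]
  simp

theorem Sit.pres (hQ : (QuadraticMap.polarBilin Q).Nondegenerate) (hn : 5 ≤ Fintype.card ι)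
    (hpt : PtHyp Q) (S : Sit Q β e f e' f' φ) : Pres Q (Wp Q e f) φ := by
  have h0 : φ 0 = 0 := by
    have := S.add hQ hn (Submodule.zero_mem _) (Submodule.zero_mem _)
    rw [add_zero] at this
    exact left_eq_add.1 this
  refine ⟨fun v hv w hw => S.add hQ hn hv hw, fun v hv h => S.inj hQ hn hv h, ?_, ?_⟩
  · intro y hy hQy
    by_cases hy0 : y = 0
    · rw [hy0, h0, map_zero]
    · obtain ⟨y'', hQy'', hl⟩ := S.line hQ hn hpt hy hy0 hQy
      obtain ⟨b, hb⟩ := hl 1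
      rw [one_smul] at hb
      rw [hb, QuadraticMap.map_smul, hQy'', smul_zero]
  · intro y hy hQy t
    by_cases hy0 : y = 0
    · exact ⟨0, by rw [hy0, smul_zero, h0, smul_zero]⟩
    · obtain ⟨y'', hQy'', hl⟩ := S.line hQ hn hpt hy hy0 hQy
      obtain ⟨b, hb⟩ := hl 1
      rw [one_smul] at hb
      have hb0 : b ≠ 0 := by
        rintro rfl
        rw [zero_smul] at hb
        exact hy0 (S.inj hQ hn hy hb)
      obtain ⟨b', hb'⟩ := hl t
      refine ⟨b' / b, ?_⟩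
      rw [hb', hb, smul_smul, div_mul_cancel₀ _ hb0]

/-- The map `φ` is a semisimilarity. -/
theorem Sit.semi (hQ : (QuadraticMap.polarBilin Q).Nondegenerate) (hn : 7 ≤ Fintype.card ι)
    (hpt : PtHyp Q) (S : Sit Q β e f e' f' φ) :
    ∃ (σ : F ≃+* F) (c : F), c ≠ 0 ∧ (∀ v ∈ Wp Q e f, ∀ t, φ (t • v) = σ t • φ v) ∧
      ∀ v ∈ Wp Q e f, Q (φ v) = c * σ (Q v) := by
  have hn5 : 5 ≤ Fintype.card ι := by omega
  apply (S.pres hQ hn5 hpt).main hQ (hasProj_Wp S.H) (hasSing_Wp hQ hn e f)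
  obtain ⟨z, hz, hQz⟩ := exists_nonsingular_orth Q hQ (S := Submodule.span F {e', f'})
    (by have := finrank_span_pair_le e' f'; omega)
  obtain ⟨y, hy, rfl⟩ := S.surj hQ hn5 hz
  exact ⟨y, hy, hQz⟩

end

end Cfsg.Agent.Lib.Helper51AO3
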