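import Mathlib
import Cfsg.Prelude.Def_Classical
import Cfsg.Prelude.Def_ClassicalGeometry
import Cfsg.Agent.Lib.Helper49Orth
import Cfsg.Agent.Lib.Helper49Hyp
import Cfsg.Agent.Lib.Helper49Fam
import Cfsg.Agent.Lib.Helper49Trans
import Cfsg.Agent.Lib.Helper49Eich
import Cfsg.Agent.Lib.Helper49Geo
import Cfsg.Agent.Lib.Helper49EichGen

/-!
# Stabilisers of totally singular subspaces are maximal in `Ω`
-/

set_option autoImplicit false
set_option linter.unusedSectionVars false

namespace Cfsg.Agent.Lib.Helper49Par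

open scoped Matrix
open Module
open Cfsg.Agent.Lib.Helper49Orth Cfsg.Agent.Lib.Helper49Hyp Cfsg.Agent.Lib.Helper18Hyp
  Cfsg.Agent.Lib.Helper49Eich Cfsg.Agent.Lib.Helper49Geo Cfsg.Agent.Lib.Helper49EichGen
  Cfsg.Agent.Lib.Helper49Fam Cfsg.Agent.Lib.Helper49Trans Cfsg.Agent.Lib.Helper49CharTwoA

variable {F : Type*} [Field F]
variable {ι : Type} [Fintype ι] [DecidableEq ι] (Q : QuadraticForm F (ι → F))

local notation "𝐁" => QuadraticMap.polar (DFunLike.coe Q)
local notation:max W "ᗮ" => LinearMap.BilinForm.orthogonal (QuadraticMap.polarBilin Q) W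

/-- The singular vectors all of whose Eichler transformations lie in `M`. -/
def RootSet (M : Subgroup ↥(Cfsg.isometryGroup F ⇑Q)) : Set (ι → F) :=
  {e | e ≠ 0 ∧ Q e = 0 ∧ ∀ w, 𝐁 e w = 0 → E Q e w ∈ M}

variable {M : Subgroup ↥(Cfsg.isometryGroup F ⇑Q)}

theorem RootSet_smul {e : ι → F} (he : e ∈ RootSet Q M) {c : F} (hc : c ≠ 0) :
    c • e ∈ RootSet Q M := by
  obtain ⟨he0, hQe, hE⟩ := he
  refine ⟨smul_ne_zero hc he0, by rw [QuadraticMap.map_smul, hQe, smul_zero], ?_⟩
  intro w hw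
  rw [QuadraticMap.polar_smul_left, smul_eq_mul] at hw
  have hw' : 𝐁 e w = 0 := (mul_eq_zero.1 hw).resolve_left hc
  rw [E_smul Q hQe hw']
  exact hE _ (by rw [QuadraticMap.polar_smul_right, hw', smul_zero])

theorem RootSet_map {e : ι → F} (he : e ∈ RootSet Q M) {g : ↥(Cfsg.isometryGroup F ⇑Q)}
    (hg : g ∈ M) : ((g : Matrix.GeneralLinearGroup ι F) : Matrix ι ι F) *ᵥ e ∈ RootSet Q M := by
  obtain ⟨he0, hQe, hE⟩ := he
  refine ⟨?_, by rw [iso_apply (Q := ⇑Q)]; exact hQe, ?_⟩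
  · intro h
    apply he0
    have := inv_mulVec_mulVec Q g e
    rw [h, Matrix.mulVec_zero] at this
    exact this.symm
  · intro w hw
    set w' := ((g⁻¹ : ↥(Cfsg.isometryGroup F ⇑Q)) : Matrix.GeneralLinearGroup ι F).1 *ᵥ w with hw'
    have h1 : ((g : Matrix.GeneralLinearGroup ι F) : Matrix ι ι F) *ᵥ w' = w :=
      mulVec_inv_mulVec Q g w
    have h2 : 𝐁 e w' = 0 := by
      rw [← polar_iso Q g, h1]; exact hw
    rw [← h1, ← E_conj Q g hQe h2]
    exact M.mul_mem (M.mul_mem hg (hE _ h2)) (M.inv_mem hg)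

theorem RootSet_step {e f f' : ι → F} (he : e ∈ RootSet Q M) (hf : f ∈ RootSet Q M)
    (hf'0 : f' ≠ 0) (hf' : Q f' = 0) (hef : 𝐁 e f ≠ 0) (hef' : 𝐁 e f' ≠ 0) :
    f' ∈ RootSet Q M := by
  set c := 𝐁 e f / 𝐁 e f' with hc
  have hc0 : c ≠ 0 := div_ne_zero hef hef'
  have hcf' : Q (c • f') = 0 := by rw [QuadraticMap.map_smul, hf', smul_zero]
  have hd : 𝐁 e (c • f' - f) = 0 := by
    rw [QuadraticMap.polar_sub_right, QuadraticMap.polar_smul_right, hc, smul_eq_mul,
      div_mul_cancel₀ _ hef', sub_self]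
  have hfe : 𝐁 f e ≠ 0 := by rw [QuadraticMap.polar_comm]; exact hef
  have hmove := E_move Q he.2.1 (hf.2.1.trans hcf'.symm) hd hfe
  have hw : 𝐁 e (-(𝐁 f e)⁻¹ • (c • f' - f)) = 0 := by
    rw [QuadraticMap.polar_smul_right, hd, smul_zero]
  have h3 := RootSet_map Q hf (he.2.2 _ hw)
  rw [hmove] at h3
  have h4 := RootSet_smul Q h3 (inv_ne_zero hc0)
  rwa [smul_smul, inv_mul_cancel₀ hc0, one_smul] at h4

theorem RootSet_univ (hQ : (QuadraticMap.polarBilin Q).Nondegenerate) {e f : ι → F}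
    (he : e ∈ RootSet Q M) (hf : f ∈ RootSet Q M) (hef : 𝐁 e f ≠ 0) {p : ι → F} (hp0 : p ≠ 0)
    (hp : Q p = 0) : p ∈ RootSet Q M := by
  by_cases hep : 𝐁 e p = 0
  · obtain ⟨y, hey, hpy⟩ := exists_polar_ne_zero_two Q hQ he.1 hp0
    have hye : 𝐁 y e ≠ 0 := by rw [QuadraticMap.polar_comm]; exact hey
    set y' := y + (- Q y / 𝐁 y e) • e with hy'
    have hQy' : Q y' = 0 := by
      rw [hy', Q_add_smul', he.2.1]
      field_simp
      ring
    have hey' : 𝐁 e y' ≠ 0 := by
      rw [hy', QuadraticMap.polar_add_right, QuadraticMap.polar_smul_right,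
        polar_self_of_singular Q he.2.1]
      simpa using hey
    have hpy' : 𝐁 p y' ≠ 0 := by
      rw [hy', QuadraticMap.polar_add_right, QuadraticMap.polar_smul_right,
        QuadraticMap.polar_comm ⇑Q p e, hep]
      simpa using hpy
    have hy'0 : y' ≠ 0 := by
      intro h
      rw [h] at hey'
      simp at hey'
    have h3 := RootSet_step Q he hf hy'0 hQy' hef hey'
    exact RootSet_step Q h3 he hp0 hp
      (by rw [QuadraticMap.polar_comm]; exact hey') (by rw [QuadraticMap.polar_comm]; exact hpy')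
  · exact RootSet_step Q he hf hp0 hp hef hep

variable [Fintype F]

/-- A subgroup containing the root groups of two non-orthogonal singular vectors contains `Ω`. -/
theorem Omega_le_of_pair (hQ : (QuadraticMap.polarBilin Q).Nondegenerate)
    (hn : 5 ≤ Fintype.card ι) {e f : ι → F}
    (he : e ∈ RootSet Q M) (hf : f ∈ RootSet Q M) (hef : 𝐁 e f ≠ 0) :
    Cfsg.Omega F ⇑Q ≤ M := by
  rw [Omega_eq_TT Q hQ hn]
  unfold TT
  rw [Subgroup.closure_le]
  rintro _ ⟨p, w, hp, hw, rfl⟩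
  by_cases hp0 : p = 0
  · subst hp0
    have : E Q (0 : ι → F) w = 1 := by
      apply ext_mulVec
      intro x
      rw [E_apply Q hp hw, one_mulVec']
      simp
    rw [this]
    exact M.one_mem
  · exact (RootSet_univ Q hQ he hf hef hp0 hp).2.2 w hw

/-- The Eichler transformations `E(e,w)` with `e ∈ W` stabilise the totally singular `W`. -/
theorem E_mem_stab_of_mem {W : Submodule F (ι → F)} (hW : TS Q W) {e w : ι → F} (heW : e ∈ W)
    (hw : 𝐁 e w = 0) : E Q e w ∈ stab Q W := by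
  apply mem_stab_of_le
  intro x hx
  rw [E_apply Q (hW e heW) hw, hW.polar_eq_zero hx heW]
  simp only [mul_zero, sub_zero, zero_smul]
  exact W.add_mem hx (W.smul_mem _ heW)

/-- The Eichler transformations `E(a,w)` with `a, w ∈ W^⊥` fix `W` pointwise. -/
theorem E_fix_of_orth {W : Submodule F (ι → F)} {a w : ι → F} (ha : Q a = 0) (haw : 𝐁 a w = 0)
    (haW : a ∈ Wᗮ) (hwW : w ∈ Wᗮ) {x : ι → F} (hx : x ∈ W) :
    ((E Q a w : Matrix.GeneralLinearGroup ι F) : Matrix ι ι F) *ᵥ x = x := by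
  rw [E_apply Q ha haw, mem_orth.1 haW x hx, mem_orth.1 hwW x hx]
  simp

theorem two_mul_finrank_le_of_TS (hQ : (QuadraticMap.polarBilin Q).Nondegenerate)
    {U : Submodule F (ι → F)} (hU : TS Q U) : 2 * finrank F U ≤ Fintype.card ι := by
  have h1 := Submodule.finrank_mono hU.le_orth
  have h2 := finrank_orth_add Q hQ U
  omega

/-- **Maximality of parabolic subgroups** of `Ω`. -/
theorem parabolic_maximal (hQ : (QuadraticMap.polarBilin Q).Nondegenerate)
    (hn : 5 ≤ Fintype.card ι) {W : Submodule F (ι → F)} (hW : TS Q W)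
    (hW2 : ∀ U : Submodule F (ι → F), TS Q U → finrank F U = finrank F W + 1 →
      2 * finrank F U ≠ Fintype.card ι)
    (hM1 : stab Q W ⊓ Cfsg.Omega F ⇑Q ≤ M) (hM2 : ¬ M ≤ stab Q W) :
    Cfsg.Omega F ⇑Q ≤ M := by
  -- vectors of `W` are in the root set
  have hWC : ∀ e ∈ W, e ≠ 0 → e ∈ RootSet Q M := by
    intro e he he0
    refine ⟨he0, hW e he, fun w hw => hM1 ⟨E_mem_stab_of_mem Q hW he hw, ?_⟩⟩
    exact E_mem_Omega Q hQ hn (hW e he) hw
  -- an element of the root set outside `W`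
  obtain ⟨g, hgM, hgW⟩ := SetLike.not_le_iff_exists.1 hM2
  have hex : ∃ x ∈ W, ((g : Matrix.GeneralLinearGroup ι F) : Matrix ι ι F) *ᵥ x ∉ W := by
    by_contra hcon
    push Not at hcon
    exact hgW (mem_stab_of_le Q hcon)
  obtain ⟨x, hxW, hgx⟩ := hex
  have hx0 : x ≠ 0 := by
    rintro rfl
    apply hgx
    rw [Matrix.mulVec_zero]
    exact W.zero_mem
  set c := ((g : Matrix.GeneralLinearGroup ι F) : Matrix ι ι F) *ᵥ x with hc
  have hcC : c ∈ RootSet Q M := RootSet_map Q (hWC x hxW hx0) hgM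
  by_cases hcW : c ∈ Wᗮ
  · -- `c ⊥ W`
    have hex2 : ∃ y ∈ Wᗮ, 𝐁 y c ≠ 0 := by
      by_contra hcon
      push Not at hcon
      apply hgx
      have : c ∈ Wᗮᗮ := by
        rw [mem_orth]
        exact hcon
      rwa [LinearMap.BilinForm.orthogonal_orthogonal hQ (polarBilin_isRefl Q)] at this
    obtain ⟨y, hyW, hyc⟩ := hex2
    set a := y + (- Q y / 𝐁 y c) • c with ha
    have hQa : Q a = 0 := by
      rw [ha, Q_add_smul', hcC.2.1]
      field_simp
      ring
    have haW : a ∈ Wᗮ := Submodule.add_mem _ hyW (Submodule.smul_mem _ _ hcW)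
    have hca : 𝐁 c a ≠ 0 := by
      rw [ha, QuadraticMap.polar_add_right, QuadraticMap.polar_smul_right,
        polar_self_of_singular Q hcC.2.1, QuadraticMap.polar_comm]
      simpa using hyc
    have haW' : a ∉ W := by
      intro h
      apply hca
      rw [QuadraticMap.polar_comm]
      exact mem_orth.1 hcW a h
    -- `S = W ⊔ span a`
    set S := W ⊔ Submodule.span F {a} with hS
    have hSTS : TS Q S := hW.sup (ts_span hQa) (span_le_orth haW)
    have hSdim : finrank F S = finrank F W + 1 := by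
      rw [hS]
      exact Submodule.finrank_sup_span_singleton haW'
    have hS2 : 2 * finrank F S < Fintype.card ι :=
      lt_of_le_of_ne (two_mul_finrank_le_of_TS Q hQ hSTS) (hW2 S hSTS hSdim)
    obtain ⟨w, hwS, hw⟩ := exists_nonsingular_orth Q hQ hS2
    rw [hS, orth_sup, Submodule.mem_inf, mem_orth_span_singleton] at hwS
    obtain ⟨hwW, haw⟩ := hwS
    have hh : E Q a w ∈ M := by
      refine hM1 ⟨mem_stab_of_le Q fun x hx => ?_, E_mem_Omega Q hQ hn hQa haw⟩
      rw [E_fix_of_orth Q hQa haw haW hwW hx]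
      exact hx
    have hc' := RootSet_map Q hcC hh
    refine Omega_le_of_pair Q hQ hn hcC hc' ?_
    rw [E_apply Q hQa haw, QuadraticMap.polar_sub_right, QuadraticMap.polar_add_right,
      QuadraticMap.polar_smul_right, QuadraticMap.polar_smul_right,
      polar_self_of_singular Q hcC.2.1]
    have : (0 + (𝐁 c w - Q w * 𝐁 c a) • 𝐁 c a - 𝐁 c a • 𝐁 c w)
        = - (Q w * (𝐁 c a * 𝐁 c a)) := by
      simp only [smul_eq_mul]; ring
    rw [this]
    exact neg_ne_zero.2 (mul_ne_zero hw (mul_ne_zero hca hca))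
  · rw [mem_orth] at hcW
    push Not at hcW
    obtain ⟨z, hzW, hzc⟩ := hcW
    have hz0 : z ≠ 0 := by
      rintro rfl
      simp at hzc
    exact Omega_le_of_pair Q hQ hn (hWC z hzW hz0) hcC hzc

/-- `Ω` does not stabilise a proper nonzero totally singular subspace. -/
theorem not_Omega_le_stab (hQ : (QuadraticMap.polarBilin Q).Nondegenerate)
    (hn : 5 ≤ Fintype.card ι) {W : Submodule F (ι → F)} (hW : TS Q W) (hW0 : W ≠ ⊥) :
    ¬ Cfsg.Omega F ⇑Q ≤ stab Q W := by
  intro hle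
  obtain ⟨e, heW, he0⟩ := Submodule.exists_mem_ne_zero_of_ne_bot hW0
  obtain ⟨f, hf, hef⟩ := exists_hyp_partner Q hQ he0 (hW e heW)
  -- choose `w ⊥ f` with `B(e,w) ...`; use `E(f, w)` moving `e`
  obtain ⟨w, hwS, hw⟩ := exists_nonsingular_orth Q hQ (S := Submodule.span F {e, f})
      (by have := finrank_span_pair_le e f; omega)
  rw [mem_orth_span_pair] at hwS
  have h1 := hle (E_mem_Omega Q hQ hn hf hwS.2)
  have h2 : ((E Q f w : Matrix.GeneralLinearGroup ι F) : Matrix ι ι F) *ᵥ e ∈ W := by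
    rw [mem_stab] at h1
    rw [← h1]
    exact (mem_img Q).2 ⟨e, heW, rfl⟩
  have h3 := hW.polar_eq_zero heW h2
  rw [E_apply Q hf hwS.2, QuadraticMap.polar_sub_right, QuadraticMap.polar_add_right,
      QuadraticMap.polar_smul_right, QuadraticMap.polar_smul_right,
      polar_self_of_singular Q (hW e heW), hwS.1, hef] at h3
  simp at h3
  exact hw h3

end Cfsg.Agent.Lib.Helper49Par
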