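import Mathlib
import Cfsg.Prelude.Def_Classical
import Cfsg.Prelude.Def_ClassicalGeometry
import Cfsg.Prelude.Def_LieTypeDatum
import Cfsg.Agent.Lib.Helper49Par
import Cfsg.Agent.Lib.Helper51AO1
import Cfsg.Agent.Lib.Helper51AO2

/-!
# Semisimilarities as maps, their matrices, and the automorphisms they induce
-/

set_option autoImplicit false
set_option linter.unusedSectionVars false

namespace Cfsg.Agent.Lib.Helper51AO4

open scoped Matrix
open Module
open Cfsg.Agent.Lib.Helper49Orth Cfsg.Agent.Lib.Helper49Hyp Cfsg.Agent.Lib.Helper18Hyp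
  Cfsg.Agent.Lib.Helper49Eich Cfsg.Agent.Lib.Helper49Geo Cfsg.Agent.Lib.Helper49EichGen
  Cfsg.Agent.Lib.Helper49CharTwoA Cfsg.Agent.Lib.Helper49Perfect Cfsg.Agent.Lib.Helper49Center
  Cfsg.Agent.Lib.Helper49Par
  Cfsg.Agent.Lib.Helper51AO1 Cfsg.Agent.Lib.Helper51AO2

variable {F : Type*} [Field F]
variable {ι : Type} [Fintype ι] [DecidableEq ι] (Q : QuadraticForm F (ι → F))

local notation "𝐁" => QuadraticMap.polar (DFunLike.coe Q)
local notation:max W "ᗮ" => LinearMap.BilinForm.orthogonal (QuadraticMap.polarBilin Q) W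
local notation:70 g:70 " ⋆ " x:71 => Matrix.mulVec (Units.val (Subtype.val g)) x

/-- A `σ`-semilinear map multiplying `Q` by `c` (after `σ`). -/
structure SemiSim (G : (ι → F) → (ι → F)) (σ : F ≃+* F) (c : F) : Prop where
  add : ∀ x y, G (x + y) = G x + G y
  smul : ∀ (t : F) x, G (t • x) = σ t • G x
  quad : ∀ x, Q (G x) = c * σ (Q x)
  c_ne : c ≠ 0

variable {Q}
variable {G : (ι → F) → (ι → F)} {σ : F ≃+* F} {c : F}

theorem SemiSim.polar (h : SemiSim Q G σ c) (x y : ι → F) : 𝐁 (G x) (G y) = c * σ (𝐁 x y) := by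
  unfold QuadraticMap.polar
  rw [← h.add, h.quad, h.quad, h.quad, _root_.map_sub, _root_.map_sub]
  ring

theorem SemiSim.map_zero (h : SemiSim Q G σ c) : G 0 = 0 := by
  have := h.smul 0 0
  rwa [zero_smul, _root_.map_zero, zero_smul] at this

theorem SemiSim.map_sub (h : SemiSim Q G σ c) (x y : ι → F) : G (x - y) = G x - G y := by
  have h1 := h.add (x - y) y
  rw [sub_add_cancel] at h1
  rw [h1, add_sub_cancel_right]

theorem SemiSim.inj (hQ : (QuadraticMap.polarBilin Q).Nondegenerate) (h : SemiSim Q G σ c)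
    {x : ι → F} (hx : G x = 0) : x = 0 := by
  apply hQ.1 x
  intro y
  have h1 := h.polar x y
  rw [hx] at h1
  simp only [QuadraticMap.polar_zero_left] at h1
  rcases mul_eq_zero.1 h1.symm with h2 | h2
  · exact absurd h2 h.c_ne
  · simpa using h2

theorem SemiSim.exists_GL (hQ : (QuadraticMap.polarBilin Q).Nondegenerate)
    (h : SemiSim Q G σ c) :
    ∃ g : GL ι F, ∀ v : ι → F, (g : Matrix ι ι F) *ᵥ (fun i => σ (v i)) = G v := by
  let L : (ι → F) →ₗ[F] (ι → F) :=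
    { toFun := fun x => G (fun i => σ.symm (x i))
      map_add' := fun x y => by
        rw [← h.add]
        congr 1
        funext i
        simp
      map_smul' := fun t x => by
        have h1 : (fun i => σ.symm ((t • x) i)) = σ.symm t • (fun i => σ.symm (x i)) := by
          funext i
          simp
        rw [h1, h.smul]
        simp }
  have hL : Function.Injective L := by
    rw [injective_iff_map_eq_zero]
    intro x hx
    have h1 : (fun i => σ.symm (x i)) = 0 := h.inj hQ hx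
    funext i
    have h2 := congrFun h1 i
    simpa using h2
  let e := LinearEquiv.ofInjectiveEndo L hL
  refine ⟨⟨LinearMap.toMatrix' e.toLinearMap, LinearMap.toMatrix' e.symm.toLinearMap,
      by rw [← LinearMap.toMatrix'_comp]; simp, by rw [← LinearMap.toMatrix'_comp]; simp⟩,
    fun v => ?_⟩
  change LinearMap.toMatrix' e.toLinearMap *ᵥ _ = _
  rw [LinearMap.toMatrix'_mulVec]
  change G (fun i => σ.symm (σ (v i))) = G v
  simp

theorem SemiSim.isSemisimilarityPair (h : SemiSim Q G σ c) {g : GL ι F}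
    (hg : ∀ v : ι → F, (g : Matrix ι ι F) *ᵥ (fun i => σ (v i)) = G v) :
    Cfsg.IsSemisimilarityPair ⇑Q g σ :=
  ⟨Units.mk0 c h.c_ne, fun v => by rw [hg, h.quad]; rfl⟩

theorem SemiSim.conj_E (h : SemiSim Q G σ c) {g : GL ι F}
    (hg : ∀ v : ι → F, (g : Matrix ι ι F) *ᵥ (fun i => σ (v i)) = G v) {u w : ι → F}
    (hu : Q u = 0) (hw : 𝐁 u w = 0) :
    ((E Q (G u) (c⁻¹ • G w) : ↥(Cfsg.isometryGroup F ⇑Q)) : GL ι F)
      = g * Matrix.GeneralLinearGroup.map (σ : F →+* F)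
          ((E Q u w : ↥(Cfsg.isometryGroup F ⇑Q)) : GL ι F) * g⁻¹ := by
  rw [eq_mul_inv_iff_mul_eq]
  apply Units.ext
  apply Matrix.mulVec_injective
  funext X
  obtain ⟨v, rfl⟩ : ∃ v : ι → F, X = fun i => σ (v i) :=
    ⟨fun i => σ.symm (X i), by funext i; simp⟩
  have hc := h.c_ne
  have hGu : Q (G u) = 0 := by rw [h.quad, hu]; simp
  have hGw : 𝐁 (G u) (c⁻¹ • G w) = 0 := by
    rw [QuadraticMap.polar_smul_right, h.polar, hw]; simp
  have h1 : (Matrix.GeneralLinearGroup.map (σ : F →+* F)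
      ((E Q u w : ↥(Cfsg.isometryGroup F ⇑Q)) : GL ι F) : Matrix ι ι F) *ᵥ (fun i => σ (v i))
      = fun i => σ ((E Q u w ⋆ v) i) := by
    funext i
    exact (RingHom.map_mulVec (σ : F →+* F) _ v i).symm
  rw [Units.val_mul, Units.val_mul, ← Matrix.mulVec_mulVec, ← Matrix.mulVec_mulVec, hg, h1, hg,
    E_apply Q hGu hGw, E_apply Q hu hw, h.map_sub, h.add, h.smul, h.smul,
    QuadraticMap.polar_smul_right, h.polar, h.polar, QuadraticMap.map_smul, h.quad, _root_.map_sub,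
    _root_.map_mul, smul_smul]
  congr 2
  · congr 1
    simp only [smul_eq_mul]
    field_simp
  · congr 1
    field_simp


/-- The subgroup of elements of `Ω` on which `β` agrees with conjugation by `(g, σ)`. -/
def Mgrp (β : MulAut (Cfsg.POmega F ⇑Q)) (g : GL ι F) (σ : F ≃+* F) :
    Subgroup ↥(Cfsg.isometryGroup F ⇑Q) where
  carrier := {s | ∃ (hs : s ∈ Cfsg.Omega F ⇑Q) (s' : ↥(Cfsg.Omega F ⇑Q)),
      ((s' : ↥(Cfsg.isometryGroup F ⇑Q)) : GL ι F)
        = g * Matrix.GeneralLinearGroup.map (σ : F →+* F) (s : GL ι F) * g⁻¹ ∧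
      β (QuotientGroup.mk ⟨s, hs⟩) = QuotientGroup.mk s'}
  one_mem' := by
    refine ⟨Subgroup.one_mem _, 1, by simp, ?_⟩
    have h1 : (⟨1, Subgroup.one_mem _⟩ : ↥(Cfsg.Omega F ⇑Q)) = 1 := rfl
    rw [h1, QuotientGroup.mk_one, _root_.map_one]
  mul_mem' := by
    rintro a b ⟨ha, a', ha1, ha2⟩ ⟨hb, b', hb1, hb2⟩
    refine ⟨Subgroup.mul_mem _ ha hb, a' * b', ?_, ?_⟩
    · rw [Subgroup.coe_mul, Subgroup.coe_mul, ha1, hb1, Subgroup.coe_mul, _root_.map_mul]
      group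
    · have h1 : (⟨a * b, Subgroup.mul_mem _ ha hb⟩ : ↥(Cfsg.Omega F ⇑Q)) = ⟨a, ha⟩ * ⟨b, hb⟩ := rfl
      rw [h1, QuotientGroup.mk_mul, _root_.map_mul, ha2, hb2, QuotientGroup.mk_mul]
  inv_mem' := by
    rintro a ⟨ha, a', ha1, ha2⟩
    refine ⟨Subgroup.inv_mem _ ha, a'⁻¹, ?_, ?_⟩
    · rw [Subgroup.coe_inv, Subgroup.coe_inv, ha1, Subgroup.coe_inv, _root_.map_inv]
      group
    · have h1 : (⟨a⁻¹, Subgroup.inv_mem _ ha⟩ : ↥(Cfsg.Omega F ⇑Q)) = (⟨a, ha⟩)⁻¹ := rfl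
      rw [h1, QuotientGroup.mk_inv, _root_.map_inv, ha2, QuotientGroup.mk_inv]

theorem induced_of_pair [Fintype F] (hQ : (QuadraticMap.polarBilin Q).Nondegenerate)
    (hn : 5 ≤ Fintype.card ι) {β : MulAut (Cfsg.POmega F ⇑Q)} {g : GL ι F} {σ : F ≃+* F}
    {e f : ι → F} (he0 : e ≠ 0) (he : Q e = 0) (hf0 : f ≠ 0) (hf : Q f = 0) (hef : 𝐁 e f ≠ 0)
    (h1 : ∀ w, 𝐁 e w = 0 → E Q e w ∈ Mgrp β g σ) (h2 : ∀ w, 𝐁 f w = 0 → E Q f w ∈ Mgrp β g σ) :
    Cfsg.IsInducedBySemilinearPOmega ⇑Q g σ β := by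
  have hle := Omega_le_of_pair Q hQ hn (M := Mgrp β g σ) ⟨he0, he, h1⟩ ⟨hf0, hf, h2⟩ hef
  intro s s' hss'
  obtain ⟨hs, s'', h3, h4⟩ := hle s.2
  have h5 : s'' = s' := by
    apply Subtype.ext
    apply Subtype.ext
    apply Units.ext
    rw [h3, hss']
    rfl
  rw [← h5, ← h4]

end Cfsg.Agent.Lib.Helper51AO4
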