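import Mathlib
import Cfsg.Prelude.Def_Classical
import Cfsg.Prelude.Def_ClassicalGeometry
import Cfsg.Prelude.Def_LieTypeDatum
import Cfsg.Agent.Lib.Helper51AO1
import Cfsg.Agent.Lib.Helper51AO2
import Cfsg.Agent.Lib.Helper51AO3
import Cfsg.Agent.Lib.Helper51AO4

/-!
# Every automorphism of `PΩ` permuting the root subgroups is induced by a semisimilarity
-/

set_option autoImplicit false
set_option linter.unusedSectionVars false

namespace Cfsg.Agent.Lib.Helper51AO5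

open scoped Matrix
open Module
open Cfsg.Agent.Lib.Helper49Orth Cfsg.Agent.Lib.Helper49Hyp Cfsg.Agent.Lib.Helper18Hyp
  Cfsg.Agent.Lib.Helper49Eich Cfsg.Agent.Lib.Helper49Geo Cfsg.Agent.Lib.Helper49EichGen
  Cfsg.Agent.Lib.Helper49CharTwoA Cfsg.Agent.Lib.Helper49Perfect Cfsg.Agent.Lib.Helper49Center
  Cfsg.Agent.Lib.Helper51AO1 Cfsg.Agent.Lib.Helper51AO2 Cfsg.Agent.Lib.Helper51AO3
  Cfsg.Agent.Lib.Helper51AO4

variable {F : Type*} [Field F] [Fintype F]
variable {ι : Type} [Fintype ι] [DecidableEq ι] {Q : QuadraticForm F (ι → F)}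

local notation "𝐁" => QuadraticMap.polar (DFunLike.coe Q)
local notation:max W "ᗮ" => LinearMap.BilinForm.orthogonal (QuadraticMap.polarBilin Q) W
local notation:70 g:70 " ⋆ " x:71 => Matrix.mulVec (Units.val (Subtype.val g)) x

theorem trans_Qb (hQ : (QuadraticMap.polarBilin Q).Nondegenerate) (hn : 5 ≤ Fintype.card ι)
    {β : MulAut (Cfsg.POmega F ⇑Q)} {u u' : ι → F} (hu : Q u = 0) (hu' : Q u' = 0)
    (h : ∀ x, x ∈ Qb Q u ↔ β x ∈ Qb Q u') {g g' : ↥(Cfsg.Omega F ⇑Q)}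
    (hg : β (QuotientGroup.mk g) = QuotientGroup.mk g') (x : Cfsg.POmega F ⇑Q) :
    x ∈ Qb Q ((g : ↥(Cfsg.isometryGroup F ⇑Q)) ⋆ u)
      ↔ β x ∈ Qb Q ((g' : ↥(Cfsg.isometryGroup F ⇑Q)) ⋆ u') := by
  have h1 := Qb_conj Q hQ hn g hu ((QuotientGroup.mk g)⁻¹ * x * QuotientGroup.mk g)
  have h2 := Qb_conj Q hQ hn g' hu' (β ((QuotientGroup.mk g)⁻¹ * x * QuotientGroup.mk g))
  have e1 : (QuotientGroup.mk g : Cfsg.POmega F ⇑Q) *
      ((QuotientGroup.mk g)⁻¹ * x * QuotientGroup.mk g) * (QuotientGroup.mk g)⁻¹ = x := by group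
  have e2 : (QuotientGroup.mk g' : Cfsg.POmega F ⇑Q) *
      β ((QuotientGroup.mk g)⁻¹ * x * QuotientGroup.mk g) * (QuotientGroup.mk g')⁻¹ = β x := by
    rw [map_mul, map_mul, map_inv, hg]; group
  rw [e1] at h1
  rw [e2] at h2
  rw [← h1, h, h2]

section
variable {β : MulAut (Cfsg.POmega F ⇑Q)} {e f e' f' : ι → F} {φ ψ : (ι → F) → (ι → F)}

theorem mem_Wp_swap {x : ι → F} (hx : x ∈ Wp Q e f) : x ∈ Wp Q f e :=
  (mem_Wp Q).2 ⟨((mem_Wp Q).1 hx).2, ((mem_Wp Q).1 hx).1⟩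

theorem star (hQ : (QuadraticMap.polarBilin Q).Nondegenerate) (hn : 5 ≤ Fintype.card ι)
    (S1 : Sit Q β e f e' f' φ) (S2 : Sit Q β f e f' e' ψ) {z : ι → F} (hz : z ∈ Wp Q e f)
    (hQz : Q z ≠ 0) : ψ z = (- Q (ψ z)) • φ (-(Q z)⁻¹ • z) ∧ Q (ψ z) ≠ 0 := by
  set y := -(Q z)⁻¹ • z with hy
  have hyW : y ∈ Wp Q e f := Submodule.smul_mem _ _ hz
  have hz' : z ∈ Wp Q f e := mem_Wp_swap hz
  have hz12 := (mem_Wp Q).1 hz
  have hy12 := (mem_Wp Q).1 hyW
  have hψ12 := (mem_Wp Q).1 (S2.hφW z hz')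
  have hφ12 := (mem_Wp Q).1 (S1.hφW y hyW)
  have T1 := trans_Qb hQ hn S1.H.he S1.H'.he S1.hβ (g := EO Q f z) (g' := EO Q f' (ψ z))
    (S2.hφ z hz')
  have T2 := trans_Qb hQ hn S2.H.he S2.H'.he S2.hβ (g := EO Q e y) (g' := EO Q e' (φ y))
    (S1.hφ y hyW)
  rw [coe_EO Q hQ hn, coe_EO Q hQ hn, S1.H.symm.E_apply_f hz12.2 hz12.1,
    S1.H'.symm.E_apply_f hψ12.1 hψ12.2] at T1
  have hQp2 : Q (E Q e y ⋆ f) = 0 := by rw [iso_apply (Q := ⇑Q)]; exact S1.H.hf
  have hQp1' : Q (E Q f' (ψ z) ⋆ e') = 0 := by rw [iso_apply (Q := ⇑Q)]; exact S1.H'.he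
  have hQp2' : Q (E Q e' (φ y) ⋆ f') = 0 := by rw [iso_apply (Q := ⇑Q)]; exact S1.H'.hf
  rw [coe_EO Q hQ hn, coe_EO Q hQ hn] at T2
  rw [S1.H'.symm.E_apply_f hψ12.1 hψ12.2] at hQp1'
  rw [S1.H.E_apply_f hy12.1 hy12.2] at T2 hQp2
  rw [S1.H'.E_apply_f hφ12.1 hφ12.2] at T2 hQp2'
  have hQy : Q y = (Q z)⁻¹ := by
    rw [hy, QuadraticMap.map_smul, smul_eq_mul]
    field_simp
  have hp : e - z - Q z • f = (- Q z) • (f - y - Q y • e) := by
    rw [hQy, hy, smul_sub, smul_sub, smul_smul, smul_smul]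
    have e1 : -Q z * -(Q z)⁻¹ = 1 := by field_simp
    have e2 : -Q z * (Q z)⁻¹ = -1 := by field_simp
    rw [e1, e2]
    simp only [one_smul, neg_smul]
    abel
  have hsub : Qb Q (e' - ψ z - Q (ψ z) • f') ⊆ Qb Q (f' - φ y - Q (φ y) • e') := by
    intro X hX
    have h1 : β (β⁻¹ X) = X := MulAut.apply_inv_self _ β X
    rw [← h1] at hX ⊢
    rw [← T1, hp, Qb_smul Q hQ hn hQp2 (neg_ne_zero.2 hQz)] at hX
    exact (T2 _).1 hX
  obtain ⟨t, ht⟩ := Submodule.mem_span_singleton.1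
    (mem_span_of_Qb_subset Q hQ hn hQp1' hQp2' hsub)
  have hee' : 𝐁 e' e' = 0 := polar_self_of_singular Q S1.H'.he
  have hff' : 𝐁 f' f' = 0 := polar_self_of_singular Q S1.H'.hf
  have hfe' : 𝐁 f' e' = 1 := S1.H'.symm.hef
  have h1 : t = - Q (ψ z) := by
    have := congrArg (fun v => 𝐁 e' v) ht
    simp only [QuadraticMap.polar_smul_right, QuadraticMap.polar_sub_right, hee', S1.H'.hef,
      hφ12.1, hψ12.2, smul_eq_mul] at this
    linear_combination this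
  have h2 : - t * Q (φ y) = 1 := by
    have := congrArg (fun v => 𝐁 f' v) ht
    simp only [QuadraticMap.polar_smul_right, QuadraticMap.polar_sub_right, hff', hfe',
      hφ12.2, hψ12.1, smul_eq_mul] at this
    linear_combination this
  have ht0 : t ≠ 0 := by
    rintro rfl
    simp at h2
  refine ⟨?_, ?_⟩
  · rw [← h1]
    have h3 : t • Q (φ y) • e' = - e' := by
      rw [smul_smul]
      have : t * Q (φ y) = -1 := by linear_combination -h2
      rw [this, neg_smul, one_smul]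
    rw [smul_sub, smul_sub, h3, ← neg_eq_iff_eq_neg.2 h1] at ht
    have h4 := sub_eq_zero.2 ht
    rw [← sub_eq_zero, ← h4]
    simp only [neg_smul]
    abel
  · intro h0
    rw [h0, neg_zero] at h1
    exact ht0 h1

theorem Sit_map_zero (hQ : (QuadraticMap.polarBilin Q).Nondegenerate) (hn : 5 ≤ Fintype.card ι)
    (S1 : Sit Q β e f e' f' φ) : φ 0 = 0 := by
  have := S1.add hQ hn (Submodule.zero_mem _) (Submodule.zero_mem _)
  rw [add_zero] at this
  exact left_eq_add.1 this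

theorem psi_eq_nonsing (hQ : (QuadraticMap.polarBilin Q).Nondegenerate)
    (hn : 5 ≤ Fintype.card ι) (S1 : Sit Q β e f e' f' φ) (S2 : Sit Q β f e f' e' ψ)
    {σ : F ≃+* F} {c : F} (hc : c ≠ 0)
    (hlin : ∀ v ∈ Wp Q e f, ∀ t, φ (t • v) = σ t • φ v)
    (hquad : ∀ v ∈ Wp Q e f, Q (φ v) = c * σ (Q v)) {z : ι → F} (hz : z ∈ Wp Q e f)
    (hQz : Q z ≠ 0) : ψ z = c⁻¹ • φ z := by
  obtain ⟨h1, h2⟩ := star hQ hn S1 S2 hz hQz
  rw [hlin z hz, smul_smul] at h1
  have hs : σ (Q z) ≠ 0 := by simpa using hQz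
  have hl : -Q (ψ z) * σ (-(Q z)⁻¹) = Q (ψ z) / σ (Q z) := by
    rw [map_neg, map_inv₀]; field_simp
  rw [hl] at h1
  have h3 : Q (ψ z) = (Q (ψ z) / σ (Q z)) * (Q (ψ z) / σ (Q z)) * (c * σ (Q z)) := by
    have := congrArg Q h1
    rw [QuadraticMap.map_smul, hquad z hz] at this
    exact this
  have h4 : Q (ψ z) * σ (Q z) = Q (ψ z) * (Q (ψ z) * c) := by
    calc Q (ψ z) * σ (Q z)
        = ((Q (ψ z) / σ (Q z)) * (Q (ψ z) / σ (Q z)) * (c * σ (Q z))) * σ (Q z) := by rw [← h3]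
      _ = _ := by field_simp
  have h5 : σ (Q z) = Q (ψ z) * c := mul_left_cancel₀ h2 h4
  have h6 : Q (ψ z) / σ (Q z) = c⁻¹ := by
    rw [h5]; field_simp
  rw [h1, h6]

theorem psi_eq (hQ : (QuadraticMap.polarBilin Q).Nondegenerate)
    (hn : 7 ≤ Fintype.card ι) (S1 : Sit Q β e f e' f' φ) (S2 : Sit Q β f e f' e' ψ)
    {σ : F ≃+* F} {c : F} (hc : c ≠ 0)
    (hlin : ∀ v ∈ Wp Q e f, ∀ t, φ (t • v) = σ t • φ v)
    (hquad : ∀ v ∈ Wp Q e f, Q (φ v) = c * σ (Q v)) {z : ι → F} (hz : z ∈ Wp Q e f) :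
    ψ z = c⁻¹ • φ z := by
  have hn5 : 5 ≤ Fintype.card ι := by omega
  by_cases hQz : Q z = 0
  · by_cases hz0 : z = 0
    · rw [hz0, Sit_map_zero hQ hn5 S1, Sit_map_zero hQ hn5 S2, smul_zero]
    · obtain ⟨w, hw, hQw⟩ := exists_nonsingular_orth Q hQ
        (S := Submodule.span F {e, f} ⊔ Submodule.span F {z}) (by
          have h1 := Submodule.finrank_add_le_finrank_add_finrank (Submodule.span F {e, f})
            (Submodule.span F {z})
          have h2 := finrank_span_pair_le e f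
          have h3 := finrank_span_singleton (K := F) hz0
          omega)
      rw [mem_orth] at hw
      have hwW : w ∈ Wp Q e f := (mem_Wp Q).2
        ⟨hw e (Submodule.mem_sup_left (Submodule.subset_span (by simp))),
          hw f (Submodule.mem_sup_left (Submodule.subset_span (by simp)))⟩
      have hzw : 𝐁 z w = 0 := hw z (Submodule.mem_sup_right (Submodule.mem_span_singleton_self z))
      have hQzw : Q (z + w) ≠ 0 := by
        rw [Q_add, hQz, hzw]; simpa using hQw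
      have h1 := psi_eq_nonsing hQ hn5 S1 S2 hc hlin hquad (Submodule.add_mem _ hz hwW) hQzw
      have h2 := psi_eq_nonsing hQ hn5 S1 S2 hc hlin hquad hwW hQw
      rw [S1.add hQ hn5 hz hwW, S2.add hQ hn5 (mem_Wp_swap hz) (mem_Wp_swap hwW), h2, smul_add]
        at h1
      exact add_right_cancel h1
  · exact psi_eq_nonsing hQ hn5 S1 S2 hc hlin hquad hz hQz

/-- **Endgame**: an automorphism mapping `Q_e`, `Q_f` to `Q_{e'}`, `Q_{f'}` is induced by a
semisimilarity. -/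
theorem main_of_sit (hQ : (QuadraticMap.polarBilin Q).Nondegenerate)
    (hn : 7 ≤ Fintype.card ι) (hpt : PtHyp Q) (S1 : Sit Q β e f e' f' φ)
    (S2 : Sit Q β f e f' e' ψ) :
    ∃ (g : GL ι F) (σ : F ≃+* F), Cfsg.IsSemisimilarityPair ⇑Q g σ ∧
      Cfsg.IsInducedBySemilinearPOmega ⇑Q g σ β := by
  have hn5 : 5 ≤ Fintype.card ι := by omega
  obtain ⟨σ, c, hc, hlin, hquad⟩ := S1.semi hQ hn hpt
  have hψ := fun z hz => psi_eq hQ hn S1 S2 hc hlin hquad (z := z) hz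
  have hprW : ∀ x, pr Q e f x ∈ Wp Q e f := fun x =>
    (mem_Wp Q).2 ⟨polar_e_pr Q S1.H.he S1.H.hf S1.H.hef x, polar_f_pr Q S1.H.he S1.H.hf S1.H.hef x⟩
  set G : (ι → F) → (ι → F) := fun x =>
    σ (𝐁 x f) • (c • e') + σ (𝐁 x e) • f' + φ (pr Q e f x) with hG
  have hGs : SemiSim Q G σ c := by
    refine ⟨?_, ?_, ?_, hc⟩
    · intro x y
      simp only [hG]
      rw [QuadraticMap.polar_add_left, QuadraticMap.polar_add_left, map_add, map_add, add_smul,
        add_smul, pr_add, S1.add hQ hn5 (hprW x) (hprW y)]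
      abel
    · intro t x
      simp only [hG]
      rw [QuadraticMap.polar_smul_left, QuadraticMap.polar_smul_left, smul_eq_mul, smul_eq_mul,
        map_mul, map_mul, pr_smul, hlin _ (hprW x), smul_add, smul_add]
      simp only [smul_smul, mul_assoc]
    · intro x
      simp only [hG]
      have h12 := (mem_Wp Q).1 (S1.hφW _ (hprW x))
      rw [Q_add, Q_add, QuadraticMap.map_smul, QuadraticMap.map_smul, QuadraticMap.map_smul,
        S1.H'.he, S1.H'.hf, QuadraticMap.polar_add_left, QuadraticMap.polar_smul_left,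
        QuadraticMap.polar_smul_left, QuadraticMap.polar_smul_left, QuadraticMap.polar_smul_left,
        QuadraticMap.polar_smul_left, QuadraticMap.polar_smul_right, S1.H'.hef, h12.1, h12.2,
        hquad _ (hprW x), Q_pr Q S1.H.he S1.H.hf S1.H.hef, map_sub, map_mul]
      simp only [smul_eq_mul, mul_zero, add_zero, zero_add, mul_one]
      ring
  obtain ⟨g, hg⟩ := hGs.exists_GL hQ
  have hGe : G e = c • e' := by
    simp only [hG]
    have h1 : pr Q e f e = 0 := by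
      unfold pr
      rw [S1.H.hef, polar_self_of_singular Q S1.H.he]
      simp
    rw [S1.H.hef, polar_self_of_singular Q S1.H.he, h1, Sit_map_zero hQ hn5 S1]
    simp
  have hGf : G f = f' := by
    simp only [hG]
    have h1 : pr Q e f f = 0 := by
      unfold pr
      rw [S1.H.symm.hef, polar_self_of_singular Q S1.H.hf]
      simp
    rw [S1.H.symm.hef, polar_self_of_singular Q S1.H.hf, h1, Sit_map_zero hQ hn5 S1]
    simp
  have hGw : ∀ w ∈ Wp Q e f, G w = φ w := by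
    intro w hw
    have h12 := (mem_Wp Q).1 hw
    simp only [hG]
    rw [QuadraticMap.polar_comm ⇑Q w f, QuadraticMap.polar_comm ⇑Q w e, h12.1, h12.2,
      pr_of_orth Q (by rw [QuadraticMap.polar_comm]; exact h12.1)
        (by rw [QuadraticMap.polar_comm]; exact h12.2)]
    simp
  refine ⟨g, σ, hGs.isSemisimilarityPair hg, ?_⟩
  apply induced_of_pair hQ hn5 S1.H.e_ne S1.H.he S1.H.symm.e_ne S1.H.hf
    (by rw [S1.H.hef]; exact one_ne_zero)
  · intro w hw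
    obtain ⟨w₁, hw₁, hE⟩ := normalize S1.H hw
    have h12 := (mem_Wp Q).1 hw₁
    have h12' := (mem_Wp Q).1 (S1.hφW _ hw₁)
    rw [← hE]
    refine ⟨E_mem Q hQ hn5 _ _, EO Q e' (φ w₁), ?_, ?_⟩
    · rw [coe_EO Q hQ hn5, ← hGs.conj_E hg S1.H.he h12.1, hGe, hGw _ hw₁,
        E_smul Q S1.H'.he (by rw [QuadraticMap.polar_smul_right, h12'.1, smul_zero]), smul_smul,
        mul_inv_cancel₀ hc, one_smul]
    · have h1 := S1.hφ _ hw₁
      unfold Pb at h1
      rw [← h1]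
      congr 2
      apply Subtype.ext
      rw [coe_EO Q hQ hn5]
  · intro w hw
    obtain ⟨w₁, hw₁, hE⟩ := normalize S1.H.symm hw
    have hw₁' : w₁ ∈ Wp Q e f := mem_Wp_swap hw₁
    have h12 := (mem_Wp Q).1 hw₁
    rw [← hE]
    refine ⟨E_mem Q hQ hn5 _ _, EO Q f' (ψ w₁), ?_, ?_⟩
    · rw [coe_EO Q hQ hn5, ← hGs.conj_E hg S1.H.hf h12.1, hGf, hGw _ hw₁', hψ _ hw₁']
    · have h1 := S2.hφ _ hw₁
      unfold Pb at h1
      rw [← h1]
      congr 2
      apply Subtype.ext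
      rw [coe_EO Q hQ hn5]

end

end Cfsg.Agent.Lib.Helper51AO5
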