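import Mathlib
import Cfsg.Prelude.Def_Classical
import Cfsg.Prelude.Def_ClassicalGeometry
import Cfsg.Prelude.Def_LieTypeDatum
import Cfsg.Agent.Lib.Helper49Simple
import Cfsg.Agent.Lib.Helper51AO1
import Cfsg.Agent.Lib.Helper51AO2
import Cfsg.Agent.Lib.Helper51AO3
import Cfsg.Agent.Lib.Helper51AO4
import Cfsg.Agent.Lib.Helper51AO5

/-!
# `Aut(PΩ)` consists of semisimilarity-induced automorphisms, given the permutation of the
root subgroups
-/

set_option autoImplicit false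
set_option linter.unusedSectionVars false

namespace Cfsg.Agent.Lib.Helper51AO6

open scoped Matrix
open Module
open Cfsg.Agent.Lib.Helper49Orth Cfsg.Agent.Lib.Helper49Hyp Cfsg.Agent.Lib.Helper18Hyp
  Cfsg.Agent.Lib.Helper49Eich Cfsg.Agent.Lib.Helper49Geo Cfsg.Agent.Lib.Helper49EichGen
  Cfsg.Agent.Lib.Helper49CharTwoA Cfsg.Agent.Lib.Helper49Perfect Cfsg.Agent.Lib.Helper49Center
  Cfsg.Agent.Lib.Helper49Prim Cfsg.Agent.Lib.Helper49Simple
  Cfsg.Agent.Lib.Helper51AO1 Cfsg.Agent.Lib.Helper51AO2 Cfsg.Agent.Lib.Helper51AO3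
  Cfsg.Agent.Lib.Helper51AO4 Cfsg.Agent.Lib.Helper51AO5

variable {F : Type*} [Field F] [Fintype F]
variable {ι : Type} [Fintype ι] [DecidableEq ι] {Q : QuadraticForm F (ι → F)}

local notation "𝐁" => QuadraticMap.polar (DFunLike.coe Q)
local notation:max W "ᗮ" => LinearMap.BilinForm.orthogonal (QuadraticMap.polarBilin Q) W
local notation:70 g:70 " ⋆ " x:71 => Matrix.mulVec (Units.val (Subtype.val g)) x

/-- `Q_e ∩ Q_f = 1` for a hyperbolic pair. -/
theorem eq_one_of_mem_Qb_Qb (hQ : (QuadraticMap.polarBilin Q).Nondegenerate)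
    (hn : 5 ≤ Fintype.card ι) {e f : ι → F} (H : Hyp Q e f) {x : Cfsg.POmega F ⇑Q}
    (h1 : x ∈ Qb Q e) (h2 : x ∈ Qb Q f) : x = 1 := by
  obtain ⟨w, hw, rfl⟩ := h1
  obtain ⟨w', hw', hE⟩ := h2
  have hnot : e ∉ Submodule.span F {f} := by
    intro hmem
    obtain ⟨a, rfl⟩ := Submodule.mem_span_singleton.1 hmem
    have := H.hef
    rw [QuadraticMap.polar_smul_left, polar_self_of_singular Q H.hf] at this
    simp at this
  obtain ⟨a, b, rfl⟩ := mem_span_of_E_eq Q hQ H.he hw H.hf hw' hnot (E_eq_of_Pb_eq Q hQ hn hE)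
  rw [QuadraticMap.polar_add_right, QuadraticMap.polar_smul_right, QuadraticMap.polar_smul_right,
    polar_self_of_singular Q H.he, H.hef] at hw
  simp only [smul_eq_mul, mul_zero, mul_one, zero_add] at hw
  rw [hw, zero_smul, add_zero, ← Pb_zero Q hQ hn e]
  apply Pb_eq_of_E_eq Q hQ hn
  rw [E_smul_self Q H.he, E_zero]

/-- `E(u,v) ≠ 1` in `PΩ` for independent orthogonal singular vectors. -/
theorem Pb_ne_one (hQ : (QuadraticMap.polarBilin Q).Nondegenerate)
    (hn : 5 ≤ Fintype.card ι) {u v : ι → F} (hu : Q u = 0) (hv : Q v = 0) (huv : 𝐁 u v = 0)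
    (hv0 : v ≠ 0) (hnot : u ∉ Submodule.span F {v}) : Pb Q u v ≠ 1 := by
  intro h
  rw [← Pb_zero Q hQ hn u] at h
  have hE := E_eq_of_Pb_eq Q hQ hn h
  rw [E_zero] at hE
  have hu0 : u ≠ 0 := by
    rintro rfl
    exact hnot (Submodule.zero_mem _)
  obtain ⟨x, hx⟩ := exists_polar_ne_zero Q hQ hu0
  have h1 : E Q u v ⋆ x = x := by rw [hE, one_mulVec']
  rw [E_apply Q hu huv, hv, zero_mul, sub_zero, QuadraticMap.polar_comm ⇑Q x u] at h1
  have h2 : 𝐁 u x • v = 𝐁 x v • u := by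
    have h3 := sub_eq_zero.2 h1
    rw [← sub_eq_zero, ← neg_eq_zero, ← h3]
    abel
  have h4 : 𝐁 x v ≠ 0 := by
    intro h0
    rw [h0, zero_smul] at h2
    rcases smul_eq_zero.1 h2 with h5 | h5
    · exact hx h5
    · exact hv0 h5
  apply hnot
  rw [Submodule.mem_span_singleton]
  refine ⟨(𝐁 x v)⁻¹ * 𝐁 u x, ?_⟩
  rw [mul_smul, h2, smul_smul, inv_mul_cancel₀ h4, one_smul]

/-- **Abstract theorem**: if every automorphism permutes the root subgroups, then every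
automorphism is induced by a semisimilarity. -/
theorem main_of_PtHyp (hQ : (QuadraticMap.polarBilin Q).Nondegenerate)
    (hn : 7 ≤ Fintype.card ι) (hpt : PtHyp Q) (β : MulAut (Cfsg.POmega F ⇑Q)) :
    ∃ (g : GL ι F) (σ : F ≃+* F), Cfsg.IsSemisimilarityPair ⇑Q g σ ∧
      Cfsg.IsInducedBySemilinearPOmega ⇑Q g σ β := by
  have hn5 : 5 ≤ Fintype.card ι := by omega
  obtain ⟨e, he0, he, -⟩ := exists_sing_orth4 Q hQ hn 0 0 0 0
  obtain ⟨f, hf, hef⟩ := exists_hyp_partner Q hQ he0 he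
  have H : Hyp Q e f := ⟨he, hf, hef⟩
  obtain ⟨e', he'0, he', hβe⟩ := hpt β e he0 he
  obtain ⟨f₀, hf₀0, hf₀, hβf⟩ := hpt β f H.symm.e_ne hf
  have hopp : 𝐁 e' f₀ ≠ 0 := by
    intro h0
    by_cases hmem : e' ∈ Submodule.span F {f₀}
    · obtain ⟨a, ha⟩ := Submodule.mem_span_singleton.1 hmem
      have ha0 : a ≠ 0 := by
        rintro rfl
        rw [zero_smul] at ha
        exact he'0 ha.symm
      have hQb : Qb Q e' = Qb Q f₀ := by rw [← ha, Qb_smul Q hQ hn5 hf₀ ha0]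
      have hsub : Qb Q e ⊆ Qb Q f := by
        intro x hx
        rw [hβf, ← hQb]
        exact (hβe x).1 hx
      obtain ⟨b, hb⟩ := Submodule.mem_span_singleton.1
        (mem_span_of_Qb_subset Q hQ hn5 he hf hsub)
      have := hef
      rw [← hb, QuadraticMap.polar_smul_left, polar_self_of_singular Q hf] at this
      simp at this
    · have h1 : Pb Q e' f₀ ∈ Qb Q e' := Pb_mem_Qb Q h0
      have h2 : Pb Q e' f₀ ∈ Qb Q f₀ := by
        rw [Pb_eq_of_E_eq Q hQ hn5 (E_swap Q he' hf₀ h0)]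
        exact Pb_mem_Qb Q (by rw [QuadraticMap.polar_neg_right, QuadraticMap.polar_comm, h0,
          neg_zero])
      have h3 : β (β⁻¹ (Pb Q e' f₀)) = Pb Q e' f₀ := MulAut.apply_inv_self _ β _
      rw [← h3] at h1 h2
      have h4 := eq_one_of_mem_Qb_Qb hQ hn5 H ((hβe _).2 h1) ((hβf _).2 h2)
      rw [h4, map_one] at h3
      exact Pb_ne_one hQ hn5 he' hf₀ h0 hf₀0 hmem h3.symm
  set f' := (𝐁 e' f₀)⁻¹ • f₀ with hf'
  have H' : Hyp Q e' f' := ⟨he', by rw [hf', QuadraticMap.map_smul, hf₀, smul_zero], by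
    rw [hf', QuadraticMap.polar_smul_right, smul_eq_mul, inv_mul_cancel₀ hopp]⟩
  have hβf' : ∀ x, x ∈ Qb Q f ↔ β x ∈ Qb Q f' := by
    intro x
    rw [hf', Qb_smul Q hQ hn5 hf₀ (inv_ne_zero hopp)]
    exact hβf x
  obtain ⟨φ, S1⟩ := exists_phi hQ hn5 H H' hβe
  obtain ⟨ψ, S2⟩ := exists_phi hQ hn5 H.symm H'.symm hβf'
  exact main_of_sit hQ hn hpt S1 S2

variable (Q) in
/-- Every automorphism permutes the images of the root subgroups (subgroup form). -/
def PointsHyp : Prop := ∀ (α : MulAut (Cfsg.POmega F ⇑Q)) (P : SPt Q), ∃ P' : SPt Q,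
  ((rootSub Q P).map (QuotientGroup.mk' (Subgroup.center ↥(Cfsg.Omega F ⇑Q)))).map α.toMonoidHom
    = (rootSub Q P').map (QuotientGroup.mk' (Subgroup.center ↥(Cfsg.Omega F ⇑Q)))

theorem mem_map_rootSub_iff (hQ : (QuadraticMap.polarBilin Q).Nondegenerate)
    (hn : 5 ≤ Fintype.card ι) {u : ι → F} (hu : Q u = 0) {P : SPt Q}
    (hP : P.1 = Submodule.span F {u}) (x : Cfsg.POmega F ⇑Q) :
    x ∈ (rootSub Q P).map (QuotientGroup.mk' (Subgroup.center ↥(Cfsg.Omega F ⇑Q)))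
      ↔ x ∈ Qb Q u := by
  constructor
  · rintro ⟨g, ⟨e, heP, w, hw, hg⟩, rfl⟩
    rw [hP] at heP
    obtain ⟨t, rfl⟩ := Submodule.mem_span_singleton.1 heP
    by_cases ht : t = 0
    · subst ht
      rw [zero_smul, E_zero_left] at hg
      refine ⟨0, by simp, ?_⟩
      rw [Pb_zero Q hQ hn]
      have : g = 1 := Subtype.ext hg
      rw [this, map_one]
    · rw [QuadraticMap.polar_smul_left, smul_eq_mul] at hw
      have hw' : 𝐁 u w = 0 := (mul_eq_zero.1 hw).resolve_left ht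
      refine ⟨t • w, by rw [QuadraticMap.polar_smul_right, hw', smul_zero], ?_⟩
      unfold Pb
      rw [QuotientGroup.mk'_apply]
      congr 1
      apply Subtype.ext
      rw [hg, coe_EO Q hQ hn, E_smul Q hu hw']
  · rintro ⟨w, hw, rfl⟩
    refine ⟨EO Q u w, ⟨u, ?_, w, hw, coe_EO Q hQ hn u w⟩, rfl⟩
    rw [hP]
    exact Submodule.mem_span_singleton_self u

theorem PtHyp_of_PointsHyp (hQ : (QuadraticMap.polarBilin Q).Nondegenerate)
    (hn : 5 ≤ Fintype.card ι) (h : PointsHyp Q) : PtHyp Q := by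
  intro β u hu0 hu
  have hTS : TS Q (Submodule.span F {u}) := by
    intro w hw
    obtain ⟨t, rfl⟩ := Submodule.mem_span_singleton.1 hw
    rw [QuadraticMap.map_smul, hu, smul_zero]
  obtain ⟨P', hP'⟩ := h β ⟨Submodule.span F {u}, finrank_span_singleton hu0, hTS⟩
  obtain ⟨u', hu'0, hu'⟩ := finrank_eq_one_iff'.1 P'.2.1
  have hspan : P'.1 = Submodule.span F {(u' : ι → F)} := by
    apply le_antisymm
    · intro w hw
      obtain ⟨c, hc⟩ := hu' ⟨w, hw⟩
      rw [Submodule.mem_span_singleton]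
      exact ⟨c, congrArg Subtype.val hc⟩
    · rw [Submodule.span_singleton_le_iff_mem]
      exact u'.2
  have hQu' : Q (u' : ι → F) = 0 := P'.2.2 _ u'.2
  refine ⟨u', fun h0 => hu'0 (Subtype.ext h0), hQu', ?_⟩
  intro x
  rw [← mem_map_rootSub_iff hQ hn hu (P := ⟨Submodule.span F {u}, finrank_span_singleton hu0, hTS⟩)
    rfl, ← mem_map_rootSub_iff hQ hn hQu' hspan, ← hP']
  constructor
  · intro hx
    exact ⟨x, hx, rfl⟩
  · rintro ⟨y, hy, hxy⟩
    have : y = x := β.injective hxy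
    rwa [← this]

/-- The final abstract statement. -/
theorem gamma_eq_top (hQ : (QuadraticMap.polarBilin Q).Nondegenerate)
    (hn : 7 ≤ Fintype.card ι) (h : PointsHyp Q) : Cfsg.gammaPOmega F ⇑Q = ⊤ := by
  rw [eq_top_iff]
  intro β _
  apply Subgroup.subset_closure
  exact main_of_PtHyp hQ hn (PtHyp_of_PointsHyp hQ (by omega) h) β

end Cfsg.Agent.Lib.Helper51AO6
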