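import Mathlib
import Cfsg.Prelude.Def_LieTypeDatum
import Cfsg.Agent.Lib.Helper49Orth
import Cfsg.Agent.Lib.Helper49Forms
import Cfsg.Agent.Lib.Helper49All
import Cfsg.Agent.Lib.Helper51OrthAut

set_option autoImplicit false

namespace Cfsg.Agent.Lib.Helper51OrthKer

open Cfsg Matrix
open scoped MatrixGroups
open Cfsg.Agent.Lib.Helper49Orth Cfsg.Agent.Lib.Helper49Forms Cfsg.Agent.Lib.Helper49All
open Cfsg.Agent.Lib.Helper51OrthAut

variable {ι : Type} [Fintype ι] [DecidableEq ι] {F : Type*} [Field F]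
variable (Q : QuadraticForm F (ι → F))


theorem siegel_mulVec (u v : ι → F) (c : F) (x : ι → F) :
    siegelMatrix (⇑Q) u v c *ᵥ x = x + (c * QuadraticMap.polar (⇑Q) u x) • v - (c * QuadraticMap.polar (⇑Q) v x) • u := by
  simp only [siegelMatrix, add_mulVec, one_mulVec, smul_mulVec, sub_mulVec, vecMulVec_mulVec,
    polarVec_dot]
  funext i
  simp only [Pi.add_apply, Pi.sub_apply, Pi.smul_apply, smul_eq_mul, MulOpposite.smul_eq_mul_unop,
    MulOpposite.unop_op]
  ring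

theorem polar_self_of_zero {u : ι → F} (hu : Q u = 0) : QuadraticMap.polar (⇑Q) u u = 0 := by
  rw [QuadraticMap.polar_self, hu, smul_zero]

theorem Q_siegel {u v : ι → F} (hu : Q u = 0) (hv : Q v = 0) (huv : QuadraticMap.polar (⇑Q) u v = 0) (c : F) (x : ι → F) :
    Q (siegelMatrix (⇑Q) u v c *ᵥ x) = Q x := by
  rw [siegel_mulVec, Q_sub, Q_add, QuadraticMap.map_smul, QuadraticMap.map_smul, hu, hv,
    QuadraticMap.polar_smul_right, QuadraticMap.polar_smul_right, QuadraticMap.polar_add_left,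
    QuadraticMap.polar_smul_left, QuadraticMap.polar_comm (⇑Q) v u, huv,
    QuadraticMap.polar_comm (⇑Q) x v, QuadraticMap.polar_comm (⇑Q) x u]
  simp only [smul_eq_mul]
  ring

theorem siegel_mul {u v : ι → F} (hu : Q u = 0) (hv : Q v = 0) (huv : QuadraticMap.polar (⇑Q) u v = 0) (c d : F) :
    siegelMatrix (⇑Q) u v c * siegelMatrix (⇑Q) u v d = siegelMatrix (⇑Q) u v (c + d) := by
  apply Matrix.mulVec_injective
  funext x
  rw [← Matrix.mulVec_mulVec, siegel_mulVec Q u v d x, siegel_mulVec, siegel_mulVec]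
  simp only [QuadraticMap.polar_sub_right, QuadraticMap.polar_add_right, QuadraticMap.polar_smul_right,
    huv, polar_self_of_zero Q hu, polar_self_of_zero Q hv, QuadraticMap.polar_comm (⇑Q) v u]
  funext i
  simp only [Pi.add_apply, Pi.sub_apply, Pi.smul_apply, smul_eq_mul]
  ring

theorem siegel_zero (u v : ι → F) : siegelMatrix (⇑Q) u v 0 = 1 := by
  simp [siegelMatrix]

/-- The Siegel transformation as an isometry. -/
noncomputable def siegelO {u v : ι → F} (hu : Q u = 0) (hv : Q v = 0) (huv : QuadraticMap.polar (⇑Q) u v = 0) (c : F) :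
    ↥(isometryGroup F ⇑Q) :=
  ⟨⟨siegelMatrix (⇑Q) u v c, siegelMatrix (⇑Q) u v (-c),
    by rw [siegel_mul Q hu hv huv, add_neg_cancel, siegel_zero],
    by rw [siegel_mul Q hu hv huv, neg_add_cancel, siegel_zero]⟩,
    mem_iso.2 fun x => Q_siegel Q hu hv huv c x⟩

theorem coe_siegelO {u v : ι → F} (hu : Q u = 0) (hv : Q v = 0) (huv : QuadraticMap.polar (⇑Q) u v = 0) (c : F) :
    (((siegelO Q hu hv huv c : ↥(isometryGroup F ⇑Q)) : GL ι F) : Matrix ι ι F) =
      siegelMatrix (⇑Q) u v c := rfl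

theorem siegelO_mul {u v : ι → F} (hu : Q u = 0) (hv : Q v = 0) (huv : QuadraticMap.polar (⇑Q) u v = 0) (c d : F) :
    siegelO Q hu hv huv c * siegelO Q hu hv huv d = siegelO Q hu hv huv (c + d) :=
  iso_ext (siegel_mul Q hu hv huv c d)

theorem siegelO_mem [Fintype F] (h2 : (2 : F) ≠ 0) (hQ : (QuadraticMap.polarBilin Q).Nondegenerate)
    {u v : ι → F} (hu : Q u = 0) (hv : Q v = 0) (huv : QuadraticMap.polar (⇑Q) u v = 0) (c : F) :
    siegelO Q hu hv huv c ∈ Omega F ⇑Q := by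
  have hq : Fintype.card F ≠ 2 ∨ Fintype.card ι ≠ 4 := by
    left
    intro h
    apply h2
    have := Nat.cast_card_eq_zero F
    rw [h] at this
    exact_mod_cast this
  have := sq_mem_Omega Q hQ hq (siegelO Q hu hv huv (c / 2))
  rw [siegelO_mul] at this
  have e : c / 2 + c / 2 = c := by field_simp; ring
  rwa [e] at this

section Scalar

variable {Q}
variable {a₁ b₁ a₂ b₂ : ι}

theorem hyp_Q_left {a b : ι} (H : HypPair Q a b) : Q (Pi.single a 1) = 0 := by
  have := H.Q_st 1 0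
  simpa using this

theorem hyp_Q_right {a b : ι} (H : HypPair Q a b) : Q (Pi.single b 1) = 0 := by
  have := H.Q_st 0 1
  simpa using this

theorem hyp_polar_left {a b : ι} (H : HypPair Q a b) (x : ι → F) :
    QuadraticMap.polar (⇑Q) (Pi.single a 1) x = x b := by
  have := H.polar_st 1 0 x
  simpa using this

theorem hyp_polar_right {a b : ι} (H : HypPair Q a b) (x : ι → F) :
    QuadraticMap.polar (⇑Q) (Pi.single b 1) x = x a := by
  have := H.polar_st 0 1 x
  simpa using this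

/-- A matrix commuting with all Siegel transformations multiplies by a fixed scalar every singular vector
orthogonal to a hyperbolic pair. -/
theorem key_singular {a b : ι} (hab : a ≠ b) (H : HypPair Q a b) (h : Matrix ι ι F)
    (hcomm : ∀ u v : ι → F, Q u = 0 → Q v = 0 → QuadraticMap.polar (⇑Q) u v = 0 →
      h * siegelMatrix (⇑Q) u v 1 = siegelMatrix (⇑Q) u v 1 * h)
    (s : ι → F) (hs : Q s = 0) (hsa : s a = 0) (hsb : s b = 0) :
    h *ᵥ s = (h *ᵥ Pi.single b 1) b • s := by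
  have e1 := congrArg (fun M => M *ᵥ (Pi.single b (1 : F) : ι → F))
    (hcomm (Pi.single a 1) s (hyp_Q_left H) hs (by rw [hyp_polar_left H, hsb]))
  have e2 := congrArg (fun M => M *ᵥ (Pi.single a (1 : F) : ι → F))
    (hcomm (Pi.single b 1) s (hyp_Q_right H) hs (by rw [hyp_polar_right H, hsa]))
  simp only [← Matrix.mulVec_mulVec, siegel_mulVec, hyp_polar_left H, hyp_polar_right H,
    QuadraticMap.polar_comm (⇑Q) s, Pi.single_eq_same, hsa, hsb, Matrix.mulVec_add, Matrix.mulVec_sub,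
    Matrix.mulVec_smul, mul_one, one_mul, mul_zero, zero_smul, sub_zero, one_smul,
    add_right_inj, add_sub_assoc] at e1 e2
  have e3 := congrFun e1 a
  have e4 := congrFun e2 a
  simp only [Pi.sub_apply, Pi.smul_apply, hsa, smul_eq_mul, mul_zero, Pi.single_eq_same, mul_one,
    Pi.single_eq_of_ne hab, zero_sub, sub_zero] at e3 e4
  rw [e4] at e3
  rw [e1]
  have : QuadraticMap.polar (⇑Q) (h *ᵥ Pi.single b 1) s = 0 := neg_eq_zero.1 e3.symm
  rw [this, zero_smul, sub_zero]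

/-- A matrix commuting with all Siegel transformations is scalar (two hyperbolic pairs suffice). -/
theorem scalar_of_comm (h1 : a₁ ≠ b₁) (h2 : a₂ ≠ b₂) (h3 : a₁ ≠ a₂) (h4 : a₁ ≠ b₂) (h5 : b₁ ≠ a₂)
    (h6 : b₁ ≠ b₂) (H1 : HypPair Q a₁ b₁) (H2 : HypPair Q a₂ b₂) (h : Matrix ι ι F)
    (hcomm : ∀ u v : ι → F, Q u = 0 → Q v = 0 → QuadraticMap.polar (⇑Q) u v = 0 →
      h * siegelMatrix (⇑Q) u v 1 = siegelMatrix (⇑Q) u v 1 * h) :
    ∃ l : F, ∀ x, h *ᵥ x = l • x := by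
  refine ⟨(h *ᵥ Pi.single b₂ 1) b₂, ?_⟩
  set l := (h *ᵥ Pi.single b₂ 1) b₂ with hl
  have K2 := key_singular h2 H2 h hcomm
  have K1 := key_singular h1 H1 h hcomm
  rw [← hl] at K2
  have hf1 : h *ᵥ Pi.single b₁ 1 = l • Pi.single b₁ 1 :=
    K2 _ (hyp_Q_right H1) (Pi.single_eq_of_ne h5.symm _) (Pi.single_eq_of_ne h6.symm _)
  have he1 : h *ᵥ Pi.single a₁ 1 = l • Pi.single a₁ 1 :=
    K2 _ (hyp_Q_left H1) (Pi.single_eq_of_ne h3.symm _) (Pi.single_eq_of_ne h4.symm _)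
  have hl1 : (h *ᵥ Pi.single b₁ 1) b₁ = l := by
    rw [hf1]; simp
  rw [hl1] at K1
  have hf2 : h *ᵥ Pi.single b₂ 1 = l • Pi.single b₂ 1 :=
    K1 _ (hyp_Q_right H2) (Pi.single_eq_of_ne h4 _) (Pi.single_eq_of_ne h6 _)
  have he2 : h *ᵥ Pi.single a₂ 1 = l • Pi.single a₂ 1 :=
    K1 _ (hyp_Q_left H2) (Pi.single_eq_of_ne h3 _) (Pi.single_eq_of_ne h5 _)
  intro x
  set w : ι → F := x - x a₁ • Pi.single a₁ 1 - x b₁ • Pi.single b₁ 1 - x a₂ • Pi.single a₂ 1
    - x b₂ • Pi.single b₂ 1 with hw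
  have wa1 : w a₁ = 0 := by
    simp [hw, Pi.single_eq_of_ne h1, Pi.single_eq_of_ne h3, Pi.single_eq_of_ne h4]
  have wb1 : w b₁ = 0 := by
    simp [hw, Pi.single_eq_of_ne h1.symm, Pi.single_eq_of_ne h5, Pi.single_eq_of_ne h6]
  have wa2 : w a₂ = 0 := by
    simp [hw, Pi.single_eq_of_ne h2, Pi.single_eq_of_ne h3.symm, Pi.single_eq_of_ne h5.symm]
  have wb2 : w b₂ = 0 := by
    simp [hw, Pi.single_eq_of_ne h2.symm, Pi.single_eq_of_ne h4.symm, Pi.single_eq_of_ne h6.symm]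
  have hs := K2 (w + (1 : F) • Pi.single a₁ 1 + (-Q w) • Pi.single b₁ 1)
    (by rw [H1 w 1 (-Q w), wa1, wb1]; ring)
    (by simp [wa2, Pi.single_eq_of_ne h3.symm, Pi.single_eq_of_ne h5.symm])
    (by simp [wb2, Pi.single_eq_of_ne h4.symm, Pi.single_eq_of_ne h6.symm])
  rw [Matrix.mulVec_add, Matrix.mulVec_add, Matrix.mulVec_smul, Matrix.mulVec_smul, he1, hf1] at hs
  have hww : h *ᵥ w = l • w := by
    have e : h *ᵥ w = (h *ᵥ w + (1 : F) • l • Pi.single a₁ 1 + (-Q w) • l • Pi.single b₁ 1)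
        - (1 : F) • l • Pi.single a₁ 1 - (-Q w) • l • Pi.single b₁ 1 := by abel
    rw [e, hs]
    funext i
    simp only [Pi.add_apply, Pi.sub_apply, Pi.smul_apply, smul_eq_mul]
    ring
  have hx : x = w + x a₁ • Pi.single a₁ 1 + x b₁ • Pi.single b₁ 1 + x a₂ • Pi.single a₂ 1
    + x b₂ • Pi.single b₂ 1 := by rw [hw]; abel
  conv_lhs => rw [hx]
  rw [Matrix.mulVec_add, Matrix.mulVec_add, Matrix.mulVec_add, Matrix.mulVec_add, Matrix.mulVec_smul,
    Matrix.mulVec_smul, Matrix.mulVec_smul, Matrix.mulVec_smul, he1, hf1, he2, hf2, hww]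
  conv_rhs => rw [hx]
  funext i
  simp only [Pi.add_apply, Pi.smul_apply, smul_eq_mul]
  ring

end Scalar

theorem scalars_le_GO : Geo.scalars ι F ≤ Geo.quadSimilarityGroup (F := F) ⇑Q := by
  intro g hg
  obtain ⟨c, hc⟩ := (Geo.mem_scalars_iff g).1 hg
  refine ⟨c * c, fun v => ?_⟩
  rw [hc, Matrix.smul_mulVec, Matrix.one_mulVec, QuadraticMap.map_smul, Units.val_mul, smul_eq_mul]

theorem mem_scalars_of_mulVec {g : GL ι F} {l : F} (h : ∀ x, (g : Matrix ι ι F) *ᵥ x = l • x) :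
    g ∈ Geo.scalars ι F := by
  have hM : (g : Matrix ι ι F) = l • (1 : Matrix ι ι F) := by
    apply Matrix.mulVec_injective
    funext x
    rw [h, Matrix.smul_mulVec, Matrix.one_mulVec]
  by_cases hι : IsEmpty ι
  · rw [Geo.mem_scalars_iff]
    exact ⟨1, by ext i; exact (hι.false i).elim⟩
  have hl : l ≠ 0 := by
    rintro rfl
    rw [zero_smul] at hM
    rw [not_isEmpty_iff] at hι
    have h1 : ((g * g⁻¹ : GL ι F) : Matrix ι ι F) = 0 := by rw [Units.val_mul, hM, zero_mul]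
    rw [mul_inv_cancel, Units.val_one] at h1
    exact one_ne_zero h1
  rw [Geo.mem_scalars_iff]
  exact ⟨Units.mk0 l hl, hM⟩

section Ker

variable [Fintype F] {a₁ b₁ a₂ b₂ : ι}

theorem ker_cAut (h2F : (2 : F) ≠ 0) (hQ : (QuadraticMap.polarBilin Q).Nondegenerate)
    (h1 : a₁ ≠ b₁) (h2 : a₂ ≠ b₂) (h3 : a₁ ≠ a₂) (h4 : a₁ ≠ b₂) (h5 : b₁ ≠ a₂)
    (h6 : b₁ ≠ b₂) (H1 : HypPair Q a₁ b₁) (H2 : HypPair Q a₂ b₂) :
    (cAut ⇑Q).ker = (Geo.scalars ι F).subgroupOf (Geo.quadSimilarityGroup (F := F) ⇑Q) := by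
  -- central elements of Ω are scalars of square one
  have hcen : ∀ z : ↥(Omega F ⇑Q), z ∈ Subgroup.center ↥(Omega F ⇑Q) →
      ∃ l : F, l * l = 1 ∧ (((z : ↥(isometryGroup F ⇑Q)) : GL ι F) : Matrix ι ι F) = l • 1 := by
    intro z hz
    obtain ⟨l, hl⟩ := scalar_of_comm h1 h2 h3 h4 h5 h6 H1 H2
      (((z : ↥(isometryGroup F ⇑Q)) : GL ι F) : Matrix ι ι F) (by
        intro u v hu hv huv
        have := Subgroup.mem_center_iff.1 hz ⟨siegelO Q hu hv huv 1, siegelO_mem Q h2F hQ hu hv huv 1⟩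
        have e := congrArg (fun y : ↥(Omega F ⇑Q) =>
          (((y : ↥(isometryGroup F ⇑Q)) : GL ι F) : Matrix ι ι F)) this
        exact e.symm)
    refine ⟨l, ?_, ?_⟩
    · have e := iso_apply (Q := ⇑Q) (z : ↥(isometryGroup F ⇑Q))
        ((1 : F) • Pi.single a₁ 1 + (1 : F) • Pi.single b₁ 1)
      rw [hl, QuadraticMap.map_smul, H1.Q_st] at e
      simpa using e
    · apply Matrix.mulVec_injective
      funext x
      rw [hl, Matrix.smul_mulVec, Matrix.one_mulVec]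
  ext g
  rw [MonoidHom.mem_ker, Subgroup.mem_subgroupOf]
  constructor
  · intro hg
    have hconj : ∀ s : ↥(Omega F ⇑Q), ∃ l : F, l * l = 1 ∧
        ((g : GL ι F) : Matrix ι ι F) * (((s : ↥(isometryGroup F ⇑Q)) : GL ι F) : Matrix ι ι F) =
        l • ((((s : ↥(isometryGroup F ⇑Q)) : GL ι F) : Matrix ι ι F) * ((g : GL ι F) : Matrix ι ι F)) := by
      intro s
      obtain ⟨s', hs'⟩ := exists_conj (⇑Q) g s
      have e1 := cAut_mk (⇑Q) g s s' hs'
      rw [hg, MulAut.one_apply] at e1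
      have e2 : s⁻¹ * s' ∈ Subgroup.center ↥(Omega F ⇑Q) := QuotientGroup.eq.1 e1
      obtain ⟨l, hl, hz⟩ := hcen _ e2
      refine ⟨l, hl, ?_⟩
      have e3 : ((s' : ↥(isometryGroup F ⇑Q)) : GL ι F) * (g : GL ι F) =
          (g : GL ι F) * ((s : ↥(isometryGroup F ⇑Q)) : GL ι F) := by
        rw [hs']; group
      have e4 : (((s' : ↥(isometryGroup F ⇑Q)) : GL ι F) : Matrix ι ι F) =
          (((s : ↥(isometryGroup F ⇑Q)) : GL ι F) : Matrix ι ι F) * (l • 1) := by
        rw [← hz]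
        have : s' = s * (s⁻¹ * s') := by group
        conv_lhs => rw [this]
        rfl
      have e5 := congrArg (fun y : GL ι F => (y : Matrix ι ι F)) e3
      simp only [Units.val_mul] at e5
      rw [← e5, e4]
      simp
    obtain ⟨l, hl⟩ := scalar_of_comm h1 h2 h3 h4 h5 h6 H1 H2 ((g : GL ι F) : Matrix ι ι F) (by
      intro u v hu hv huv
      obtain ⟨l, hl, e⟩ := hconj ⟨siegelO Q hu hv huv (1 / 2), siegelO_mem Q h2F hQ hu hv huv _⟩
      have e' : ((g : GL ι F) : Matrix ι ι F) * siegelMatrix (⇑Q) u v (1 / 2) =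
          l • (siegelMatrix (⇑Q) u v (1 / 2) * ((g : GL ι F) : Matrix ι ι F)) := e
      have hh : siegelMatrix (⇑Q) u v 1 = siegelMatrix (⇑Q) u v (1 / 2) * siegelMatrix (⇑Q) u v (1 / 2) := by
        rw [siegel_mul Q hu hv huv]
        congr 1
        field_simp
        norm_num
      rw [hh, ← mul_assoc, e', Matrix.smul_mul, mul_assoc, e', Matrix.mul_smul, smul_smul, hl, one_smul,
        mul_assoc])
    exact mem_scalars_of_mulVec hl
  · intro hg
    obtain ⟨c, hc⟩ := (Geo.mem_scalars_iff _).1 hg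
    ext x
    induction x using QuotientGroup.induction_on with
    | H s =>
      rw [MulAut.one_apply]
      apply cAut_mk
      rw [eq_mul_inv_iff_mul_eq]
      apply Units.ext
      rw [Units.val_mul, Units.val_mul, hc]
      simp

end Ker

end Cfsg.Agent.Lib.Helper51OrthKer
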