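import Mathlib
import Cfsg.Prelude.Def_LieTypeDatum
import Cfsg.Agent.Lib.Helper49Orth
import Cfsg.Agent.Lib.Helper49Forms
import Cfsg.Agent.Lib.Helper49All
import Cfsg.Agent.Lib.Helper49Idx
import Cfsg.Agent.Lib.Helper49Gram
import Cfsg.Agent.Lib.Helper51OrthAut
import Cfsg.Agent.Lib.Helper51OrthKer
import Cfsg.Agent.Lib.Helper51Abs
import Cfsg.Agent.S2624

set_option autoImplicit false
set_option linter.unusedSectionVars false
set_option linter.unusedSimpArgs false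

namespace Cfsg.Agent.Lib.Helper51OrthIdx

open Cfsg Matrix
open scoped MatrixGroups
open Cfsg.Agent.Lib.Helper49Orth Cfsg.Agent.Lib.Helper49Forms Cfsg.Agent.Lib.Helper49All
open Cfsg.Agent.Lib.Helper49Idx Cfsg.Agent.Lib.Helper49Gram
open Cfsg.Agent.Lib.Helper51OrthAut Cfsg.Agent.Lib.Helper51OrthKer Cfsg.Agent.Lib.Helper51Abs

variable {ι : Type} [Fintype ι] [DecidableEq ι] {F : Type*} [Field F]
variable (Q : QuadraticForm F (ι → F))

/-- The conformal group. -/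
abbrev GO : Subgroup (GL ι F) := Geo.quadSimilarityGroup (F := F) ⇑Q

/-- Standing hypotheses. -/
structure Good : Prop where
  two : (2 : F) ≠ 0
  nondeg : (QuadraticMap.polarBilin Q).Nondegenerate
  pairs : ∃ a₁ b₁ a₂ b₂ : ι, a₁ ≠ b₁ ∧ a₂ ≠ b₂ ∧ a₁ ≠ a₂ ∧ a₁ ≠ b₂ ∧ b₁ ≠ a₂ ∧ b₁ ≠ b₂ ∧
    HypPair Q a₁ b₁ ∧ HypPair Q a₂ b₂

variable {Q}

theorem Good.exists_one (G : Good Q) : ∃ x, Q x = 1 := by
  obtain ⟨a₁, b₁, -, -, -, -, -, -, -, -, H, -⟩ := G.pairs
  exact ⟨_, (H.Q_st 1 1).trans (mul_one 1)⟩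

theorem Good.ker [Fintype F] (G : Good Q) :
    (cAut ⇑Q).ker = (Geo.scalars ι F).subgroupOf (GO Q) := by
  obtain ⟨a₁, b₁, a₂, b₂, h1, h2, h3, h4, h5, h6, H1, H2⟩ := G.pairs
  exact ker_cAut Q G.two G.nondeg h1 h2 h3 h4 h5 h6 H1 H2

variable (Q)

/-- Gram determinant relation for a similarity matrix. -/
theorem det_sq_of_sim (hQ : (QuadraticMap.polarBilin Q).Nondegenerate) (M : Matrix ι ι F) (c : F)
    (h : ∀ v, Q (M *ᵥ v) = c * Q v) : M.det * M.det = c ^ Fintype.card ι := by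
  have h1 := gram_family Q (fun k => M *ᵥ Pi.single k 1)
  have h2 : Matrix.of (fun k l : ι => QuadraticMap.polar ⇑Q (M *ᵥ Pi.single k 1) (M *ᵥ Pi.single l 1))
      = c • Helper49Gram.gram Q := by
    ext k l
    simp only [Matrix.of_apply, Matrix.smul_apply, Helper49Gram.gram, smul_eq_mul, QuadraticMap.polar]
    rw [← Matrix.mulVec_add, h, h, h]
    ring
  have h3 : Matrix.of (fun i k => (M *ᵥ Pi.single k (1 : F)) i) = M := by
    ext i k
    simp
  rw [h2, h3] at h1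
  have h4 := congrArg Matrix.det h1
  rw [Matrix.det_smul, Matrix.det_mul, Matrix.det_mul, Matrix.det_transpose] at h4
  have h5 := det_gram_ne_zero Q hQ
  apply mul_right_cancel₀ h5
  rw [h4]
  ring

noncomputable def muFun (g : ↥(GO Q)) : Fˣ := Classical.choose g.2

theorem muFun_spec (g : ↥(GO Q)) (v : ι → F) :
    Q (((g : GL ι F) : Matrix ι ι F) *ᵥ v) = (muFun Q g : F) * Q v := Classical.choose_spec g.2 v

theorem muFun_eq (hx : ∃ x, Q x = 1) (g : ↥(GO Q)) (c : Fˣ)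
    (h : ∀ v, Q (((g : GL ι F) : Matrix ι ι F) *ᵥ v) = (c : F) * Q v) : muFun Q g = c := by
  obtain ⟨x, hx⟩ := hx
  have := muFun_spec Q g x
  rw [h x, hx, mul_one, mul_one] at this
  exact Units.ext this.symm

/-- The multiplier. -/
noncomputable def mu (hx : ∃ x, Q x = 1) : ↥(GO Q) →* Fˣ :=
  MonoidHom.mk' (muFun Q) (fun a b => muFun_eq Q hx _ _ (fun v => by
    rw [Subgroup.coe_mul, Units.val_mul, ← Matrix.mulVec_mulVec, muFun_spec, muFun_spec, Units.val_mul,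
      mul_assoc]))

theorem mu_spec (hx : ∃ x, Q x = 1) (g : ↥(GO Q)) (v : ι → F) :
    Q (((g : GL ι F) : Matrix ι ι F) *ᵥ v) = (mu Q hx g : F) * Q v := muFun_spec Q g v

theorem mu_eq (hx : ∃ x, Q x = 1) (g : ↥(GO Q)) (c : Fˣ)
    (h : ∀ v, Q (((g : GL ι F) : Matrix ι ι F) *ᵥ v) = (c : F) * Q v) : mu Q hx g = c :=
  muFun_eq Q hx g c h

/-- `det g / μ(g)^m`. -/
noncomputable def delta (hx : ∃ x, Q x = 1) (m : ℕ) : ↥(GO Q) →* Fˣ :=
  MonoidHom.mk' (fun g => Matrix.GeneralLinearGroup.det (g : GL ι F) * ((mu Q hx g)⁻¹) ^ m) (by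
    intro a b
    rw [Subgroup.coe_mul, map_mul, map_mul, mul_inv, mul_pow, mul_mul_mul_comm])

theorem delta_apply (hx : ∃ x, Q x = 1) (m : ℕ) (g : ↥(GO Q)) :
    delta Q hx m g = Matrix.GeneralLinearGroup.det (g : GL ι F) * ((mu Q hx g)⁻¹) ^ m := rfl

theorem delta_mul_self (hQ : (QuadraticMap.polarBilin Q).Nondegenerate) (hx : ∃ x, Q x = 1) {m : ℕ}
    (hm : Fintype.card ι = 2 * m) (g : ↥(GO Q)) : delta Q hx m g * delta Q hx m g = 1 := by
  have h := det_sq_of_sim Q hQ _ _ (mu_spec Q hx g)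
  have h' : Matrix.GeneralLinearGroup.det (g : GL ι F) * Matrix.GeneralLinearGroup.det (g : GL ι F) =
      (mu Q hx g) ^ (2 * m) := by
    apply Units.ext
    rw [Units.val_mul, Units.val_pow_eq_pow_val, ← hm]
    exact h
  rw [delta_apply, mul_mul_mul_comm, h', ← pow_two, ← pow_mul, inv_pow, mul_comm m 2, mul_inv_cancel]

theorem delta_cases (hQ : (QuadraticMap.polarBilin Q).Nondegenerate) (hx : ∃ x, Q x = 1) {m : ℕ}
    (hm : Fintype.card ι = 2 * m) (g : ↥(GO Q)) : delta Q hx m g = 1 ∨ delta Q hx m g = -1 := by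
  have h := delta_mul_self Q hQ hx hm g
  have h' : ((delta Q hx m g : Fˣ) : F) * ((delta Q hx m g : Fˣ) : F) = 1 := by
    rw [← Units.val_mul, h, Units.val_one]
  rcases mul_self_eq_one_iff.1 h' with h1 | h1
  · left; exact Units.ext h1
  · right; exact Units.ext (by rw [h1]; simp)

open Classical in
/-- Turning a `±1`-valued character into a sign. -/
noncomputable def sgnHom {X : Type*} [Group X] (d : X →* Fˣ) (hd : ∀ x, d x = 1 ∨ d x = -1)
    (h2 : (2 : F) ≠ 0) : X →* ℤˣ :=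
  MonoidHom.mk' (fun x => if d x = 1 then 1 else -1) (by
    intro a b
    have hne : (-1 : Fˣ) ≠ 1 := by
      intro h
      have h' : (-1 : F) = 1 := by
        have := congrArg (fun u : Fˣ => (u : F)) h
        simpa using this
      apply h2
      linear_combination -h'
    rcases hd a with ha | ha <;> rcases hd b with hb | hb <;> simp [ha, hb, hne])

open Classical in
theorem sgnHom_eq_one_iff {X : Type*} [Group X] (d : X →* Fˣ) (hd : ∀ x, d x = 1 ∨ d x = -1)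
    (h2 : (2 : F) ≠ 0) (x : X) : sgnHom d hd h2 x = 1 ↔ d x = 1 := by
  show (if d x = 1 then (1 : ℤˣ) else -1) = 1 ↔ _
  by_cases h : d x = 1
  · simp [h]
  · simp [h]

/-- Special isometries inside the conformal group. -/
abbrev SO' : Subgroup ↥(GO Q) := (specialIsometryGL F ⇑Q).subgroupOf (GO Q)
/-- Scalars inside the conformal group. -/
abbrev ZZ : Subgroup ↥(GO Q) := (Geo.scalars ι F).subgroupOf (GO Q)
/-- `Ω` inside the conformal group. -/
abbrev Om' : Subgroup ↥(GO Q) := (OmegaGL ⇑Q).subgroupOf (GO Q)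

theorem mem_O_iff (hx : ∃ x, Q x = 1) (g : ↥(GO Q)) :
    (g : GL ι F) ∈ isometryGroup F ⇑Q ↔ mu Q hx g = 1 := by
  constructor
  · intro h
    exact mu_eq Q hx g 1 (fun v => by rw [mem_iso.1 h v, Units.val_one, one_mul])
  · intro h
    rw [mem_iso]
    intro v
    rw [mu_spec Q hx, h, Units.val_one, one_mul]

theorem mem_SO'_iff (hx : ∃ x, Q x = 1) (m : ℕ) (g : ↥(GO Q)) :
    g ∈ SO' Q ↔ mu Q hx g = 1 ∧ delta Q hx m g = 1 := by
  rw [Subgroup.mem_subgroupOf, specialIsometryGL, Subgroup.mem_inf, mem_O_iff Q hx, delta_apply]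
  constructor
  · rintro ⟨h1, h2⟩
    have h2' : Matrix.GeneralLinearGroup.det (g : GL ι F) = 1 := h2
    refine ⟨h1, ?_⟩
    rw [h1, h2']; simp
  · rintro ⟨h1, h2⟩
    refine ⟨h1, ?_⟩
    rw [h1] at h2
    show Matrix.GeneralLinearGroup.det (g : GL ι F) = 1
    simpa using h2

/-- Scalar matrices as conformal elements. -/
noncomputable def scal (c : Fˣ) : ↥(GO Q) :=
  ⟨Units.map (Matrix.scalar ι : F →+* Matrix ι ι F).toMonoidHom c, scalars_le_GO Q ⟨c, rfl⟩⟩

theorem scal_mem (c : Fˣ) : scal Q c ∈ ZZ Q := ⟨c, rfl⟩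

theorem coe_scal (c : Fˣ) : (((scal Q c : ↥(GO Q)) : GL ι F) : Matrix ι ι F) = (c : F) • 1 := by
  show Matrix.scalar ι (c : F) = _
  simp [Matrix.smul_one_eq_diagonal]

theorem exists_scal {z : ↥(GO Q)} (hz : z ∈ ZZ Q) : ∃ c, z = scal Q c := by
  obtain ⟨c, hc⟩ := hz
  exact ⟨c, Subtype.ext hc.symm⟩

theorem mu_scal (hx : ∃ x, Q x = 1) (c : Fˣ) : mu Q hx (scal Q c) = c * c :=
  mu_eq Q hx _ _ (fun v => by
    rw [coe_scal, Matrix.smul_mulVec, Matrix.one_mulVec, QuadraticMap.map_smul, Units.val_mul, smul_eq_mul])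

theorem delta_scal (hx : ∃ x, Q x = 1) {m : ℕ} (hm : Fintype.card ι = 2 * m) (c : Fˣ) :
    delta Q hx m (scal Q c) = 1 := by
  rw [delta_apply, mu_scal]
  have : Matrix.GeneralLinearGroup.det ((scal Q c : ↥(GO Q)) : GL ι F) = c ^ (2 * m) := by
    apply Units.ext
    rw [Matrix.GeneralLinearGroup.val_det_apply, coe_scal, Matrix.det_smul, Matrix.det_one, mul_one, hm,
      Units.val_pow_eq_pow_val]
  rw [this, ← pow_two, inv_pow, ← pow_mul, mul_inv_cancel]

end Cfsg.Agent.Lib.Helper51OrthIdx
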