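import Mathlib
import Cfsg.Agent.Lib.Helper18GamA
import Cfsg.Agent.Lib.Helper51AO6
import Cfsg.Agent.Lib.Helper51OrthIdx

/-!
# Kernel of the action of the semisimilarity group on `PΩ`; the order of `Aut(PΩ)`
-/

set_option autoImplicit false
set_option linter.unusedSectionVars false

namespace Cfsg.Agent.Lib.Helper18GamB

open Cfsg Matrix Module
open scoped MatrixGroups
open Cfsg.Agent.Lib.Helper49Orth Cfsg.Agent.Lib.Helper49Hyp
  Cfsg.Agent.Lib.Helper49Eich Cfsg.Agent.Lib.Helper49Geo Cfsg.Agent.Lib.Helper49EichGen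
  Cfsg.Agent.Lib.Helper49Perfect Cfsg.Agent.Lib.Helper49Center
  Cfsg.Agent.Lib.Helper49Simple
  Cfsg.Agent.Lib.Helper51AO2 Cfsg.Agent.Lib.Helper51AO4
  Cfsg.Agent.Lib.Helper51OrthAut Cfsg.Agent.Lib.Helper51OrthKer Cfsg.Agent.Lib.Helper51OrthIdx
  Cfsg.Agent.Lib.Helper18GamA

variable {F : Type*} [Field F] [Fintype F]
variable {ι : Type} [Fintype ι] [DecidableEq ι] (Q : QuadraticForm F (ι → F))

local notation "𝐁" => QuadraticMap.polar (DFunLike.coe Q)

theorem semiSim (x : ↥(GamO ⇑Q)) :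
    ∃ c : F, SemiSim Q (act (x : GamL ι F)) (x : GamL ι F).right c := by
  obtain ⟨c, hc⟩ := x.2
  exact ⟨c, ⟨act_add _, act_smul _, hc, c.ne_zero⟩⟩

theorem sAut_Pb (hQ : (QuadraticMap.polarBilin Q).Nondegenerate) (hn : 5 ≤ Fintype.card ι)
    (x : ↥(GamO ⇑Q)) {c : F} (S : SemiSim Q (act (x : GamL ι F)) (x : GamL ι F).right c)
    {u w : ι → F} (hu : Q u = 0) (hw : 𝐁 u w = 0) :
    sAut ⇑Q x (Pb Q u w) = Pb Q (act (x : GamL ι F) u) (c⁻¹ • act (x : GamL ι F) w) := by
  unfold Pb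
  apply sAut_mk
  rw [coe_EO Q hQ hn, coe_EO Q hQ hn, S.conj_E (g := (x : GamL ι F).left) (fun v => rfl) hu hw]
  rfl

theorem act_eigen (hQ : (QuadraticMap.polarBilin Q).Nondegenerate) (hn : 5 ≤ Fintype.card ι)
    (x : ↥(GamO ⇑Q)) (hx : sAut ⇑Q x = 1) {u : ι → F} (hu : Q u = 0) :
    ∃ l : F, act (x : GamL ι F) u = l • u := by
  obtain ⟨c, S⟩ := semiSim Q x
  by_cases hu0 : u = 0
  · subst hu0
    exact ⟨0, by rw [S.map_zero, smul_zero]⟩
  have hTu : Q (act (x : GamL ι F) u) = 0 := by rw [S.quad, hu]; simp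
  have hsub : Qb Q u ⊆ Qb Q (act (x : GamL ι F) u) := by
    rintro y ⟨w, hw, rfl⟩
    have h1 := sAut_Pb Q hQ hn x S hu hw
    rw [hx, MulAut.one_apply] at h1
    rw [h1]
    apply Pb_mem_Qb
    rw [QuadraticMap.polar_smul_right, S.polar, hw]
    simp
  obtain ⟨a, ha⟩ := Submodule.mem_span_singleton.1 (mem_span_of_Qb_subset Q hQ hn hu hTu hsub)
  have ha0 : a ≠ 0 := by
    rintro rfl
    rw [zero_smul] at ha
    exact hu0 ha.symm
  exact ⟨a⁻¹, by nth_rewrite 2 [← ha]; rw [smul_smul, inv_mul_cancel₀ ha0, one_smul]⟩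

theorem right_eq_one (hQ : (QuadraticMap.polarBilin Q).Nondegenerate) (hn : 5 ≤ Fintype.card ι)
    (x : ↥(GamO ⇑Q)) (hx : sAut ⇑Q x = 1) : (x : GamL ι F).right = 1 := by
  obtain ⟨c, S⟩ := semiSim Q x
  obtain ⟨e, -, he0, he⟩ := exists_singular_orth Q hQ (S := ⊥) (by simp; omega)
  obtain ⟨f, hf, hef⟩ := exists_hyp_partner Q hQ he0 he
  obtain ⟨e', he'mem, he'0, he'⟩ := exists_singular_orth Q hQ (S := Submodule.span F {e, f})
    (by have := finrank_span_pair_le e f; omega)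
  obtain ⟨h1, h2⟩ := (mem_orth_span_pair Q).1 he'mem
  obtain ⟨l, hl⟩ := act_eigen Q hQ hn x hx he
  obtain ⟨l', hl'⟩ := act_eigen Q hQ hn x hx he'
  have hl0 : l ≠ 0 := by
    rintro rfl
    rw [zero_smul] at hl
    exact he0 (S.inj hQ hl)
  have key : ∀ t : F, (x : GamL ι F).right t * l = l' * t := by
    intro t
    have hs : Q (t • e + e') = 0 := by
      rw [QuadraticMap.map_add ⇑Q, QuadraticMap.map_smul, he, he', QuadraticMap.polar_smul_left, h1]
      simp
    obtain ⟨k, hk⟩ := act_eigen Q hQ hn x hx hs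
    rw [S.add, S.smul, hl, hl', smul_add, smul_smul, smul_smul] at hk
    have h3 : ((x : GamL ι F).right t * l - k * t) • e = (k - l') • e' := by
      rw [sub_smul, sub_smul, sub_eq_sub_iff_add_eq_add, hk]
      abel
    have h4 := congrArg (fun z => 𝐁 z f) h3
    simp only [QuadraticMap.polar_smul_left, hef, QuadraticMap.polar_comm (⇑Q) e' f, h2, smul_eq_mul,
      mul_one, mul_zero] at h4
    rw [h4, zero_smul] at h3
    have h5 : k - l' = 0 := (smul_eq_zero.1 h3.symm).resolve_right he'0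
    rw [sub_eq_zero] at h4 h5
    rw [h4, h5]
  have hll : l = l' := by
    have := key 1
    simpa using this
  ext t
  have := key t
  rw [← hll, mul_comm] at this
  exact mul_left_cancel₀ hl0 this

theorem left_mem_scalars (hQ : (QuadraticMap.polarBilin Q).Nondegenerate)
    (hn : 5 ≤ Fintype.card ι)
    (x : ↥(GamO ⇑Q)) (hx : sAut ⇑Q x = 1) : (x : GamL ι F).left ∈ Geo.scalars ι F := by
  have hr := right_eq_one Q hQ hn x hx
  obtain ⟨l, hl⟩ := scalar_of_singular Q hQ hn ((x : GamL ι F).left : Matrix ι ι F) (by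
    intro e he
    obtain ⟨l, hl⟩ := act_eigen Q hQ hn x hx he
    refine ⟨l, ?_⟩
    rw [← hl]
    unfold act
    rw [hr]
    rfl)
  apply mem_scalars_of_mulVec (l := l)
  intro v
  rw [hl, Matrix.smul_mulVec, Matrix.one_mulVec]

theorem cAut_eq_one_of_scalar (g : ↥(GO Q)) (hg : g ∈ ZZ Q) : cAut ⇑Q g = 1 := by
  obtain ⟨c, hc⟩ := (Geo.mem_scalars_iff _).1 hg
  have hc' : ((g : GL ι F) : Matrix ι ι F) = (c : F) • 1 := hc
  ext x
  induction x using QuotientGroup.induction_on with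
  | H s =>
    rw [MulAut.one_apply]
    apply cAut_mk
    rw [eq_mul_inv_iff_mul_eq]
    apply Units.ext
    rw [Units.val_mul, Units.val_mul, hc']
    simp

theorem ker_sAut (hQ : (QuadraticMap.polarBilin Q).Nondegenerate) (hn : 5 ≤ Fintype.card ι) :
    (sAut ⇑Q).ker = (ZZ Q).map (inlO ⇑Q) := by
  ext x
  constructor
  · intro hx
    have h1 := right_eq_one Q hQ hn x hx
    have h2 := left_mem_scalars Q hQ hn x hx
    refine ⟨⟨(x : GamL ι F).left, scalars_le_GO Q h2⟩, h2, ?_⟩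
    apply Subtype.ext
    apply SemidirectProduct.ext
    · rfl
    · exact h1.symm
  · rintro ⟨g, hg, rfl⟩
    rw [MonoidHom.mem_ker, sAut_inlO]
    exact cAut_eq_one_of_scalar Q g hg

theorem ker_cAut_all (hQ : (QuadraticMap.polarBilin Q).Nondegenerate) (hn : 5 ≤ Fintype.card ι) :
    (cAut ⇑Q).ker = ZZ Q := by
  ext g
  constructor
  · intro hg
    have h1 : inlO ⇑Q g ∈ (sAut ⇑Q).ker := by
      rw [MonoidHom.mem_ker, sAut_inlO]
      exact hg
    rw [ker_sAut Q hQ hn] at h1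
    obtain ⟨g', hg', h2⟩ := h1
    rwa [← inlO_injective ⇑Q h2]
  · exact cAut_eq_one_of_scalar Q g

theorem center_POmega (hQ : (QuadraticMap.polarBilin Q).Nondegenerate) (hn : 5 ≤ Fintype.card ι) :
    Subgroup.center (POmega F ⇑Q) = ⊥ := by
  have hs := POmega_simple Q hQ hn
  rcases (Subgroup.center (POmega F ⇑Q)).normal_of_characteristic.eq_bot_or_eq_top with h | h
  · exact h
  · exfalso
    have h1 : commutator (POmega F ⇑Q) = ⊤ := by
      have h2 := Subgroup.map_commutator (⊤ : Subgroup ↥(Omega F ⇑Q)) ⊤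
        (QuotientGroup.mk' (Subgroup.center ↥(Omega F ⇑Q)))
      rw [Subgroup.map_top_of_surjective _ (QuotientGroup.mk'_surjective _)] at h2
      have h3 : (⁅(⊤ : Subgroup ↥(Omega F ⇑Q)), ⊤⁆ : Subgroup ↥(Omega F ⇑Q)) = ⊤ :=
        Omega_perfect Q hQ hn
      rw [h3, Subgroup.map_top_of_surjective _ (QuotientGroup.mk'_surjective _)] at h2
      exact h2.symm
    have h4 : commutator (POmega F ⇑Q) = ⊥ := by
      unfold commutator
      rw [Subgroup.commutator_eq_bot_iff_le_centralizer, Subgroup.coe_top,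
        Subgroup.centralizer_univ, h]
    rw [h4] at h1
    exact bot_ne_top h1

theorem card_Inn (hQ : (QuadraticMap.polarBilin Q).Nondegenerate) (hn : 5 ≤ Fintype.card ι) :
    Nat.card ↥(Inn (POmega F ⇑Q)) = Nat.card (POmega F ⇑Q) := by
  have hinj : Function.Injective (MulAut.conj : POmega F ⇑Q →* MulAut (POmega F ⇑Q)) := by
    rw [← MonoidHom.ker_eq_bot_iff, eq_bot_iff, ← center_POmega Q hQ hn]
    intro g hg
    rw [Subgroup.mem_center_iff]
    intro y
    have h1 := congrArg (fun β : MulAut (POmega F ⇑Q) => β y) (MonoidHom.mem_ker.1 hg)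
    simp only [MulAut.conj_apply, MulAut.one_apply] at h1
    rw [mul_inv_eq_iff_eq_mul] at h1
    exact h1.symm
  exact (Nat.card_congr (MonoidHom.ofInjective hinj).toEquiv).symm

theorem index_Inn (hQ : (QuadraticMap.polarBilin Q).Nondegenerate) (hn : 5 ≤ Fintype.card ι)
    (hsurj : Function.Surjective (sAut ⇑Q)) (hpr : Function.Surjective (prO ⇑Q)) :
    (Inn (POmega F ⇑Q)).index = (Om' Q ⊔ ZZ Q).index * Nat.card (F ≃+* F) := by
  have h1 : Inn (POmega F ⇑Q) = ((Om' Q).map (inlO ⇑Q)).map (sAut ⇑Q) := by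
    rw [inn_eq, Subgroup.map_map]
    congr 1
  rw [h1, Subgroup.index_map, MonoidHom.range_eq_top.2 hsurj, Subgroup.index_top, mul_one,
    ker_sAut Q hQ hn, ← Subgroup.map_sup, Subgroup.index_map,
    (MonoidHom.ker_eq_bot_iff _).2 (inlO_injective ⇑Q), sup_bot_eq, ← ker_prO, Subgroup.index_ker,
    MonoidHom.range_eq_top.2 hpr, Nat.card_congr Subgroup.topEquiv.toEquiv]

/-- The order of `Aut(PΩ)`, given that all automorphisms are induced by semisimilarities. -/
theorem card_aut (hQ : (QuadraticMap.polarBilin Q).Nondegenerate) (hn : 5 ≤ Fintype.card ι)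
    (hsurj : Function.Surjective (sAut ⇑Q)) (hpr : Function.Surjective (prO ⇑Q)) :
    Nat.card (MulAut (POmega F ⇑Q)) =
      (Om' Q ⊔ ZZ Q).index * Nat.card (F ≃+* F) * Nat.card (POmega F ⇑Q) := by
  rw [← index_Inn Q hQ hn hsurj hpr, ← card_Inn Q hQ hn, mul_comm, Subgroup.card_mul_index]

theorem sAut_surjective (h : gammaPOmega F ⇑Q = ⊤) : Function.Surjective (sAut ⇑Q) := by
  rw [← MonoidHom.range_eq_top, ← gamma_eq_range, h]

end Cfsg.Agent.Lib.Helper18GamB
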