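import Mathlib
import Cfsg.Agent.Lib.Helper51OrthIdx

set_option autoImplicit false
set_option linter.unusedSectionVars false
set_option linter.unusedSimpArgs false

namespace Cfsg.Agent.Lib.Helper51OrthIdx2

open Cfsg Matrix
open scoped MatrixGroups
open Cfsg.Agent.Lib.Helper49Orth Cfsg.Agent.Lib.Helper49Forms Cfsg.Agent.Lib.Helper49All
open Cfsg.Agent.Lib.Helper49Idx Cfsg.Agent.Lib.Helper49Gram
open Cfsg.Agent.Lib.Helper51OrthAut Cfsg.Agent.Lib.Helper51OrthKer Cfsg.Agent.Lib.Helper51Abs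
open Cfsg.Agent.Lib.Helper51OrthIdx

variable {ι : Type} [Fintype ι] [DecidableEq ι] {F : Type*} [Field F] [Fintype F]
variable (Q : QuadraticForm F (ι → F))

open Classical in
/-- The quadratic character on units. -/
noncomputable def sqChar : Fˣ →* ℤˣ := (quadraticChar F).toUnitHom

open Classical in
theorem sqChar_eq_one_iff (u : Fˣ) : sqChar u = 1 ↔ IsSquare (u : F) := by
  rw [← quadraticChar_one_iff_isSquare u.ne_zero, sqChar, ← Units.val_inj, MulChar.coe_toUnitHom,
    Units.val_one]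

/-- The inclusion of the isometry group in the conformal group. -/
noncomputable def incO : ↥(isometryGroup F ⇑Q) →* ↥(GO Q) := Subgroup.inclusion (O_le_GO ⇑Q)

theorem coe_incO (x : ↥(isometryGroup F ⇑Q)) : ((incO Q x : ↥(GO Q)) : GL ι F) = (x : GL ι F) := rfl

theorem incO_injective : Function.Injective (incO Q) := Subgroup.inclusion_injective _

theorem mu_incO (hx : ∃ x, Q x = 1) (x : ↥(isometryGroup F ⇑Q)) : mu Q hx (incO Q x) = 1 :=
  (mem_O_iff Q hx _).1 x.2

theorem delta_incO (hx : ∃ x, Q x = 1) (m : ℕ) (x : ↥(isometryGroup F ⇑Q)) :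
    delta Q hx m (incO Q x) = detO Q x := by
  rw [delta_apply, mu_incO]
  simp only [inv_one, one_pow, mul_one]
  rfl

theorem exists_incO (hx : ∃ x, Q x = 1) {g : ↥(GO Q)} (h : mu Q hx g = 1) : ∃ x, incO Q x = g :=
  ⟨⟨g, (mem_O_iff Q hx g).2 h⟩, rfl⟩

/-- The character pair detecting `SO · Z`. -/
noncomputable def psi (G : Good Q) {m : ℕ} (hm : Fintype.card ι = 2 * m) : ↥(GO Q) →* ℤˣ × ℤˣ :=
  (sqChar.comp (mu Q G.exists_one)).prod
    (sgnHom (delta Q G.exists_one m) (delta_cases Q G.nondeg G.exists_one hm) G.two)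

theorem psi_eq_one_iff (G : Good Q) {m : ℕ} (hm : Fintype.card ι = 2 * m) (g : ↥(GO Q)) :
    psi Q G hm g = 1 ↔ IsSquare ((mu Q G.exists_one g : Fˣ) : F) ∧ delta Q G.exists_one m g = 1 := by
  rw [← sqChar_eq_one_iff, ← sgnHom_eq_one_iff (delta Q G.exists_one m)
    (delta_cases Q G.nondeg G.exists_one hm) G.two]
  exact Prod.ext_iff

theorem ker_psi (G : Good Q) {m : ℕ} (hm : Fintype.card ι = 2 * m) :
    (psi Q G hm).ker = SO' Q ⊔ ZZ Q := by
  apply le_antisymm
  · intro g hg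
    rw [MonoidHom.mem_ker, psi_eq_one_iff] at hg
    obtain ⟨⟨l, hl⟩, hd⟩ := hg
    have hl0 : l ≠ 0 := by
      rintro rfl
      rw [mul_zero] at hl
      exact (mu Q G.exists_one g).ne_zero hl
    have hl' : mu Q G.exists_one g = Units.mk0 l hl0 * Units.mk0 l hl0 := Units.ext hl
    have : g = (g * (scal Q (Units.mk0 l hl0))⁻¹) * scal Q (Units.mk0 l hl0) := by group
    rw [this]
    apply Subgroup.mul_mem_sup _ (scal_mem Q _)
    rw [mem_SO'_iff Q G.exists_one m, map_mul, map_mul, map_inv, map_inv, mu_scal, delta_scal Q _ hm, hd,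
      hl']
    simp
  · rw [sup_le_iff]
    constructor
    · intro g hg
      rw [mem_SO'_iff Q G.exists_one m] at hg
      rw [MonoidHom.mem_ker, psi_eq_one_iff, hg.1]
      exact ⟨by simp, hg.2⟩
    · intro g hg
      obtain ⟨c, rfl⟩ := exists_scal Q hg
      rw [MonoidHom.mem_ker, psi_eq_one_iff, mu_scal, delta_scal Q _ hm]
      exact ⟨⟨c, by simp⟩, rfl⟩

/-- A conformal element with prescribed multiplier. -/
theorem exists_mu_eq (G : Good Q) {m : ℕ} (hm : Fintype.card ι = 2 * m) (c : Fˣ) :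
    ∃ g : ↥(GO Q), mu Q G.exists_one g = c := by
  obtain ⟨f, hf⟩ := Cfsg.Agent.S2624.sim_lin Q G.nondeg
    (by rw [Module.finrank_fintype_fun_eq_card, hm]; exact even_two_mul m) (c : F)
  have h1 : ∀ v, Q ((LinearMap.toMatrix' f) *ᵥ v) = (c : F) * Q v := by
    intro v
    rw [LinearMap.toMatrix'_mulVec, hf]
  have h2 := det_sq_of_sim Q G.nondeg _ _ h1
  have h3 : (LinearMap.toMatrix' f).det ≠ 0 := by
    intro h
    rw [h, mul_zero] at h2
    exact pow_ne_zero _ c.ne_zero h2.symm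
  refine ⟨⟨Matrix.GeneralLinearGroup.mkOfDetNeZero _ h3, ⟨c, h1⟩⟩, ?_⟩
  exact mu_eq Q _ _ _ h1

theorem surj_of_two {X : Type*} [Group X] (f : X →* ℤˣ × ℤˣ) (r g : X) (hr : f r = (1, -1))
    (hg : (f g).1 = -1) : Function.Surjective f := by
  have key : ∃ g', f g' = (-1, 1) := by
    rcases Int.units_eq_one_or (f g).2 with h | h
    · exact ⟨g, Prod.ext hg h⟩
    · refine ⟨g * r, ?_⟩
      rw [map_mul, hr]
      exact Prod.ext (by simp [hg]) (by simp [h])
  obtain ⟨g', hg'⟩ := key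
  rintro ⟨x, y⟩
  rcases Int.units_eq_one_or x with rfl | rfl <;> rcases Int.units_eq_one_or y with rfl | rfl
  · exact ⟨1, map_one _⟩
  · exact ⟨_, hr⟩
  · exact ⟨_, hg'⟩
  · exact ⟨g' * r, by rw [map_mul, hr, hg']; rfl⟩

theorem neg_one_ne_one (h2 : (2 : F) ≠ 0) : (-1 : Fˣ) ≠ 1 := by
  intro h
  have h' : (-1 : F) = 1 := by
    have := congrArg (fun u : Fˣ => (u : F)) h
    simpa using this
  apply h2
  linear_combination -h'

theorem psi_surjective (G : Good Q) {m : ℕ} (hm : Fintype.card ι = 2 * m) :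
    Function.Surjective (psi Q G hm) := by
  obtain ⟨x, hx⟩ := G.exists_one
  have hx0 : Q x ≠ 0 := by rw [hx]; exact one_ne_zero
  obtain ⟨c, hc⟩ := FiniteField.exists_nonsquare (ringChar_ne_two G.two)
  have hc0 : c ≠ 0 := by rintro rfl; exact hc IsSquare.zero
  obtain ⟨g, hg⟩ := exists_mu_eq Q G hm (Units.mk0 c hc0)
  apply surj_of_two _ (incO Q (reflO Q hx0)) g
  · apply Prod.ext
    · show sqChar (mu Q G.exists_one _) = 1
      rw [mu_incO, map_one]
    · show sgnHom _ _ _ _ = -1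
      rcases Int.units_eq_one_or (sgnHom (delta Q G.exists_one m)
        (delta_cases Q G.nondeg G.exists_one hm) G.two (incO Q (reflO Q hx0))) with h | h
      · rw [sgnHom_eq_one_iff, delta_incO, detO_reflO] at h
        exact absurd h (neg_one_ne_one G.two)
      · exact h
  · show sqChar (mu Q G.exists_one g) = -1
    rcases Int.units_eq_one_or (sqChar (mu Q G.exists_one g)) with h | h
    · rw [sqChar_eq_one_iff, hg] at h
      exact absurd h hc
    · exact h

theorem map_ZZ (G : Good Q) : (ZZ Q).map (cAut ⇑Q) = ⊥ := by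
  exact (Subgroup.map_eq_bot_iff _).2 G.ker.ge

theorem ker_le_of (G : Good Q) (K : Subgroup ↥(GO Q)) : (cAut ⇑Q).ker ≤ K ⊔ ZZ Q := by
  rw [G.ker]
  exact le_sup_right

theorem map_sup_ZZ (G : Good Q) (K : Subgroup ↥(GO Q)) :
    (K ⊔ ZZ Q).map (cAut ⇑Q) = K.map (cAut ⇑Q) := by
  rw [Subgroup.map_sup, map_ZZ Q G, sup_bot_eq]

/-- General form of `PGO / PSO ≅ 2²`. -/
theorem T1 (G : Good Q) {m : ℕ} (hm : Fintype.card ι = 2 * m) :
    ∃ φ : ↥(pgoAut F ⇑Q) →* Multiplicative (ZMod 2 × ZMod 2), Function.Surjective φ ∧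
      φ.ker = (psoAut F ⇑Q).subgroupOf (pgoAut F ⇑Q) := by
  obtain ⟨e⟩ := klein_equiv
  have h := exists_hom (cAut ⇑Q) (e.toMonoidHom.comp (psi Q G hm))
    (e.surjective.comp (psi_surjective Q G hm)) (by
      rw [MonoidHom.ker_comp_of_injective _ _ e.injective, ker_psi]
      exact ker_le_of Q G _)
  rw [pgoAut_eq, psoAut_eq]
  rw [MonoidHom.ker_comp_of_injective _ _ e.injective, ker_psi, map_sup_ZZ Q G] at h
  exact h

end Cfsg.Agent.Lib.Helper51OrthIdx2
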