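import Mathlib
import Cfsg.Agent.Lib.Helper51OrthIdx2
import Cfsg.Agent.Lib.Helper49CD

set_option autoImplicit false
set_option linter.unusedSectionVars false
set_option linter.unusedSimpArgs false

namespace Cfsg.Agent.Lib.Helper51OrthIdx3

open Cfsg Matrix
open scoped MatrixGroups
open Cfsg.Agent.Lib.Helper49Orth Cfsg.Agent.Lib.Helper49Forms Cfsg.Agent.Lib.Helper49All
open Cfsg.Agent.Lib.Helper49Idx Cfsg.Agent.Lib.Helper49Gram Cfsg.Agent.Lib.Helper49CD
open Cfsg.Agent.Lib.Helper51OrthAut Cfsg.Agent.Lib.Helper51OrthKer Cfsg.Agent.Lib.Helper51Abs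
open Cfsg.Agent.Lib.Helper51OrthIdx Cfsg.Agent.Lib.Helper51OrthIdx2

/-- A group of order 8 mapping onto the four-group with a non-central involution is dihedral. -/
theorem dihedral_of_hom {K : Type*} [Group K] (hK : Nat.card K = 8) (f : K →* ℤˣ × ℤˣ)
    (hf : Function.Surjective f) (a g : K) (ha : a * a = 1) (hne : a * g ≠ g * a) :
    Nonempty (K ≃* DihedralGroup 4) := by
  have hker : Nat.card f.ker = 2 := by
    have h1 := Subgroup.card_mul_index f.ker
    have h4 : Nat.card (⊤ : Subgroup (ℤˣ × ℤˣ)) = 4 := by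
      rw [Nat.card_congr (Subgroup.topEquiv (G := ℤˣ × ℤˣ)).toEquiv, Nat.card_eq_fintype_card]
      rfl
    rw [Subgroup.index_ker, MonoidHom.range_eq_top.2 hf, hK, h4] at h1
    omega
  obtain ⟨z, hz1, hz⟩ := (Nat.card_eq_two_iff' (1 : f.ker)).1 hker
  have hN : ∀ n : K, f n = 1 → n = 1 ∨ n = z := by
    intro n hn
    by_cases h : n = 1
    · left; exact h
    · right
      have := hz ⟨n, hn⟩ (by intro h'; exact h (congrArg Subtype.val h'))
      exact congrArg Subtype.val this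
  have hsq : ∀ u : ℤˣ × ℤˣ, u * u = 1 := by decide
  have hgg : f (g * g) = 1 := by rw [map_mul]; exact hsq _
  have hcomm : f (a * g * a⁻¹ * g⁻¹) = 1 := by
    simp only [map_mul, map_inv]
    rw [mul_comm (f a) (f g)]
    group
  by_cases h1 : g * g = 1
  · exact dihedral_four hK a g ha h1 hne
  · have hgz : g * g = z := (hN _ hgg).resolve_left h1
    have ht : a * g * a⁻¹ * g⁻¹ = z := (hN _ hcomm).resolve_left (by
      intro h
      apply hne
      have := congrArg (fun t => t * g * a) h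
      simpa [mul_assoc] using this)
    have hainv : a⁻¹ = a := inv_eq_of_mul_eq_one_left ha
    have hzz : (z : K) * z = 1 := by
      have hfz : f ((z : K) * z) = 1 := by rw [map_mul]; exact hsq _
      rcases hN _ hfz with h | h
      · exact h
      · exfalso
        apply hz1
        apply Subtype.ext
        have : (z : K) = 1 := by simpa using h
        exact this
    have hag : a * g = z * g * a := by
      rw [← ht, hainv]
      simp [mul_assoc, ha]
    apply dihedral_four hK a (g * a) ha ?_ ?_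
    · calc g * a * (g * a) = g * (a * g) * a := by group
        _ = g * (z * g * a) * a := by rw [hag]
        _ = g * z * g * (a * a) := by group
        _ = g * (g * g) * g * (a * a) := by rw [hgz]
        _ = (g * g) * (g * g) * (a * a) := by group
        _ = 1 := by rw [hgz, hzz, ha, one_mul]
    · intro h
      apply hne
      have := congrArg (fun t => t * a) h
      simpa [mul_assoc, ha] using this

variable {ι : Type} [Fintype ι] [DecidableEq ι] {F : Type*} [Field F] [Fintype F]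
variable (Q : QuadraticForm F (ι → F))

/-- `-1 ∈ Ω`. -/
def NegIn : Prop :=
  ∃ g : ↥(isometryGroup F ⇑Q), g ∈ Omega F ⇑Q ∧ ((g : GL ι F) : Matrix ι ι F) = -1

theorem negIn_iff : NegIn Q ↔ negO Q ∈ Omega F ⇑Q := by
  constructor
  · rintro ⟨g, hg, h⟩
    have : g = negO Q := iso_ext (by rw [h, coe_negO])
    rwa [← this]
  · intro h
    exact ⟨_, h, coe_negO Q⟩

theorem even_of_neg_one_pow (h2 : (2 : F) ≠ 0) {n : ℕ} (h : (-1 : Fˣ) ^ n = 1) : Even n := by
  by_contra hodd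
  rw [Nat.not_even_iff_odd] at hodd
  rw [hodd.neg_one_pow] at h
  exact neg_one_ne_one h2 h

theorem chi_mul_chi (h2 : (2 : F) ≠ 0) (hQ : (QuadraticMap.polarBilin Q).Nondegenerate) {c : F}
    (hc : ¬ IsSquare c) (x : ↥(isometryGroup F ⇑Q)) (hdet : detO Q x = 1) :
    chi Q 1 x * chi Q c x = 1 := by
  obtain ⟨vs, hvs, rfl⟩ := exists_list_refl Q h2 hQ x
  rw [chi_mul_chi_prod Q h2 hc vs hvs]
  rw [detO_prod Q vs hvs] at hdet
  exact (even_of_neg_one_pow h2 hdet).neg_one_pow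

theorem mem_Omega_iff (h2 : (2 : F) ≠ 0) (hQ : (QuadraticMap.polarBilin Q).Nondegenerate)
    (x : ↥(isometryGroup F ⇑Q)) (hdet : detO Q x = 1) : x ∈ Omega F ⇑Q ↔ chi Q 1 x = 1 := by
  obtain ⟨c, hc⟩ := FiniteField.exists_nonsquare (ringChar_ne_two h2)
  rw [← ker_Phi Q h2 hQ hc, MonoidHom.mem_ker]
  constructor
  · intro h
    exact congrArg Prod.fst h
  · intro h
    have h' := chi_mul_chi Q h2 hQ hc x hdet
    rw [h, one_mul] at h'
    exact Prod.ext h h'

theorem Omega_le_ker_det : Omega F ⇑Q ≤ (detO Q).ker :=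
  fun _ hmem => Abelianization.commutator_subset_ker (detO Q) hmem

theorem SO'_eq : SO' Q = (detO Q).ker.map (incO Q) := by
  ext g
  constructor
  · intro hg
    exact ⟨⟨g, hg.1⟩, hg.2, rfl⟩
  · rintro ⟨x, hx, rfl⟩
    exact ⟨x.2, hx⟩

theorem Om'_eq : Om' Q = (Omega F ⇑Q).map (incO Q) := by
  ext g
  constructor
  · rintro ⟨w, hw, hwg⟩
    exact ⟨w, hw, Subtype.ext hwg⟩
  · rintro ⟨w, hw, rfl⟩
    exact ⟨w, hw, rfl⟩

theorem Om'_le_SO' : Om' Q ≤ SO' Q := by
  rw [Om'_eq, SO'_eq]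
  exact Subgroup.map_mono (Omega_le_ker_det Q)

theorem incO_mem_Om' (x : ↥(isometryGroup F ⇑Q)) : incO Q x ∈ Om' Q ↔ x ∈ Omega F ⇑Q := by
  rw [Om'_eq, Subgroup.mem_map_iff_mem (incO_injective Q)]

theorem incO_mem_SO' (x : ↥(isometryGroup F ⇑Q)) : incO Q x ∈ SO' Q ↔ detO Q x = 1 := by
  rw [SO'_eq, Subgroup.mem_map_iff_mem (incO_injective Q), MonoidHom.mem_ker]

theorem detO_cases (G : Good Q) {m : ℕ} (hm : Fintype.card ι = 2 * m) (x : ↥(isometryGroup F ⇑Q)) :
    detO Q x = 1 ∨ detO Q x = -1 := by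
  rw [← delta_incO Q G.exists_one m]
  exact delta_cases Q G.nondeg G.exists_one hm _

theorem index_ker_detO (G : Good Q) {m : ℕ} (hm : Fintype.card ι = 2 * m) :
    (detO Q).ker.index = 2 := by
  obtain ⟨x, hx⟩ := G.exists_one
  have hx0 : Q x ≠ 0 := by rw [hx]; exact one_ne_zero
  rw [Subgroup.index_eq_two_iff]
  refine ⟨reflO Q hx0, fun b => ?_⟩
  simp only [MonoidHom.mem_ker, map_mul, detO_reflO]
  have hne := neg_one_ne_one G.two
  rcases detO_cases Q G hm b with h | h <;> rw [h]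
  · right
    exact ⟨rfl, by simpa using hne⟩
  · left
    exact ⟨by simp, hne⟩

theorem two_le_card (G : Good Q) : 2 ≤ Fintype.card ι := by
  obtain ⟨a₁, b₁, -, -, h, -⟩ := G.pairs
  have : Nontrivial ι := ⟨a₁, b₁, h⟩
  exact Fintype.one_lt_card

theorem relIndex_Om_SO (G : Good Q) {m : ℕ} (hm : Fintype.card ι = 2 * m) :
    (Om' Q).relIndex (SO' Q) = 2 := by
  rw [SO'_eq, Om'_eq, Subgroup.relIndex_map_map_of_injective _ _ (incO_injective Q)]
  have h1 := Subgroup.relIndex_mul_index (Omega_le_ker_det Q)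
  rw [index_Omega Q G.two G.nondeg (two_le_card Q G), index_ker_detO Q G hm] at h1
  omega

instance Om'_normal : (Om' Q).Normal := ⟨fun x hx g => by
  obtain ⟨w, hw, hwx⟩ := hx
  obtain ⟨s', hs'⟩ := exists_conj ⇑Q g ⟨w, hw⟩
  refine ⟨s', s'.2, ?_⟩
  have hwx' : (w : GL ι F) = (x : GL ι F) := hwx
  show ((s' : ↥(isometryGroup F ⇑Q)) : GL ι F) = _
  rw [hs']
  show (g : GL ι F) * (w : GL ι F) * (g : GL ι F)⁻¹ = _
  rw [hwx']
  rfl⟩

theorem ZZ_normal (G : Good Q) : (ZZ Q).Normal := by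
  have := G.ker
  unfold ZZ
  rw [← this]
  infer_instance

theorem K0_normal (G : Good Q) : (Om' Q ⊔ ZZ Q).Normal := by
  haveI := ZZ_normal Q G
  infer_instance

theorem incO_negO : incO Q (negO Q) = scal Q (-1) := by
  apply Subtype.ext
  apply Units.ext
  rw [coe_scal, coe_incO, coe_negO]
  simp

theorem detO_negO {m : ℕ} (hm : Fintype.card ι = 2 * m) : detO Q (negO Q) = 1 := by
  apply Units.ext
  rw [detO_apply, coe_negO, Matrix.det_neg, hm, Matrix.det_one, mul_one, Units.val_one, pow_mul]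
  simp

theorem negO_mul_self : negO Q * negO Q = 1 := by
  apply iso_ext
  simp

theorem mem_sup_ZZ (G : Good Q) (H : Subgroup ↥(GO Q)) {x : ↥(GO Q)} (hx : x ∈ H ⊔ ZZ Q) :
    ∃ w ∈ H, ∃ c : Fˣ, x = w * scal Q c := by
  haveI := ZZ_normal Q G
  have : x ∈ ((H ⊔ ZZ Q : Subgroup ↥(GO Q)) : Set ↥(GO Q)) := hx
  rw [Subgroup.mul_normal] at this
  obtain ⟨w, hw, z, hz, rfl⟩ := this
  obtain ⟨c, rfl⟩ := exists_scal Q hz
  exact ⟨w, hw, c, rfl⟩

theorem K0_inf_SO' (G : Good Q) {m : ℕ} (hm : Fintype.card ι = 2 * m) (hneg : NegIn Q) :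
    (Om' Q ⊔ ZZ Q) ⊓ SO' Q = Om' Q := by
  apply le_antisymm
  · rintro x ⟨hx1, hx2⟩
    obtain ⟨w, hw, c, rfl⟩ := mem_sup_ZZ Q G _ hx1
    have hw2 := Om'_le_SO' Q hw
    have h1 := ((mem_SO'_iff Q G.exists_one m _).1 hx2).1
    rw [map_mul, ((mem_SO'_iff Q G.exists_one m _).1 hw2).1, one_mul, mu_scal] at h1
    have h2 : (c : F) * c = 1 := by rw [← Units.val_mul, h1, Units.val_one]
    apply mul_mem hw
    rcases mul_self_eq_one_iff.1 h2 with h | h
    · have : c = 1 := Units.ext h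
      rw [this]
      have : scal Q (1 : Fˣ) = 1 := by
        apply Subtype.ext
        apply Units.ext
        rw [coe_scal]
        simp
      rw [this]
      exact one_mem _
    · have : c = -1 := Units.ext (by rw [h]; simp)
      rw [this, ← incO_negO, incO_mem_Om']
      exact (negIn_iff Q).1 hneg
  · exact le_inf le_sup_left (Om'_le_SO' Q)

theorem relIndex_K0_K1 (G : Good Q) {m : ℕ} (hm : Fintype.card ι = 2 * m) (hneg : NegIn Q) :
    (Om' Q ⊔ ZZ Q).relIndex (SO' Q ⊔ ZZ Q) = 2 := by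
  haveI := K0_normal Q G
  have : SO' Q ⊔ ZZ Q = (Om' Q ⊔ ZZ Q) ⊔ SO' Q := by
    apply le_antisymm
    · exact sup_le le_sup_right (le_sup_right.trans le_sup_left)
    · exact sup_le (sup_le ((Om'_le_SO' Q).trans le_sup_left) le_sup_right) le_sup_left
  rw [this, Subgroup.relIndex_sup_left, ← Subgroup.inf_relIndex_right, K0_inf_SO' Q G hm hneg,
    relIndex_Om_SO Q G hm]

theorem SO'_le_K0 (G : Good Q) {m : ℕ} (hm : Fintype.card ι = 2 * m) (hneg : ¬ NegIn Q) :
    SO' Q ≤ Om' Q ⊔ ZZ Q := by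
  intro x hx
  rw [SO'_eq] at hx
  obtain ⟨y, hy, rfl⟩ := hx
  have hy' : detO Q y = 1 := hy
  by_cases hyO : y ∈ Omega F ⇑Q
  · exact Subgroup.mem_sup_left ((incO_mem_Om' Q y).2 hyO)
  · have h1 : chi Q 1 y = -1 := by
      rcases Int.units_eq_one_or (chi Q 1 y) with h | h
      · exact absurd ((mem_Omega_iff Q G.two G.nondeg y hy').2 h) hyO
      · exact h
    have h2 : chi Q 1 (negO Q) = -1 := by
      rcases Int.units_eq_one_or (chi Q 1 (negO Q)) with h | h
      · exact absurd ((negIn_iff Q).2 ((mem_Omega_iff Q G.two G.nondeg _ (detO_negO Q hm)).2 h)) hneg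
      · exact h
    have h3 : y * negO Q ∈ Omega F ⇑Q := by
      rw [mem_Omega_iff Q G.two G.nondeg _ (by rw [map_mul, hy', detO_negO Q hm, one_mul]), map_mul, h1, h2]
      rfl
    have h4 : incO Q y = incO Q (y * negO Q) * scal Q (-1) := by
      rw [← incO_negO, ← map_mul, mul_assoc, negO_mul_self, mul_one]
    rw [h4]
    exact Subgroup.mul_mem_sup ((incO_mem_Om' Q _).2 h3) (scal_mem Q _)

/-- General form: `[PSO : PΩ] = 2` when `-1 ∈ Ω`. -/
theorem T2b (G : Good Q) {m : ℕ} (hm : Fintype.card ι = 2 * m) (hneg : NegIn Q) :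
    (Inn (POmega F ⇑Q)).relIndex (psoAut F ⇑Q) = 2 := by
  rw [inn_eq, psoAut_eq, Subgroup.relIndex_map_map, G.ker]
  exact relIndex_K0_K1 Q G hm hneg

/-- General form: `PSO = PΩ` when `-1 ∉ Ω`. -/
theorem T2a (G : Good Q) {m : ℕ} (hm : Fintype.card ι = 2 * m) (hneg : ¬ NegIn Q) :
    (Inn (POmega F ⇑Q)).relIndex (psoAut F ⇑Q) = 1 := by
  rw [inn_eq, psoAut_eq, Subgroup.relIndex_map_map, G.ker, Subgroup.relIndex_eq_one]
  exact sup_le (SO'_le_K0 Q G hm hneg) le_sup_right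

theorem T3a (G : Good Q) {m : ℕ} (hm : Fintype.card ι = 2 * m) (hneg : ¬ NegIn Q) :
    ∃ φ : ↥(pgoAut F ⇑Q) →* Multiplicative (ZMod 2 × ZMod 2), Function.Surjective φ ∧
      φ.ker = (Inn (POmega F ⇑Q)).subgroupOf (pgoAut F ⇑Q) := by
  have h : Inn (POmega F ⇑Q) = psoAut F ⇑Q := by
    apply le_antisymm
    · rw [inn_eq, psoAut_eq]
      exact Subgroup.map_mono (Om'_le_SO' Q)
    · exact Subgroup.relIndex_eq_one.1 (T2a Q G hm hneg)
  rw [h]
  exact T1 Q G hm

end Cfsg.Agent.Lib.Helper51OrthIdx3
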