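import Mathlib
import Cfsg.Agent.Lib.Helper51OrthIdx3

set_option autoImplicit false
set_option linter.unusedSectionVars false
set_option linter.unusedSimpArgs false

namespace Cfsg.Agent.Lib.Helper51OrthIdx4

open Cfsg Matrix
open scoped MatrixGroups
open Cfsg.Agent.Lib.Helper49Orth Cfsg.Agent.Lib.Helper49Forms Cfsg.Agent.Lib.Helper49All
open Cfsg.Agent.Lib.Helper49Idx Cfsg.Agent.Lib.Helper49Gram Cfsg.Agent.Lib.Helper49CD
open Cfsg.Agent.Lib.Helper51OrthAut Cfsg.Agent.Lib.Helper51OrthKer Cfsg.Agent.Lib.Helper51Abs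
open Cfsg.Agent.Lib.Helper51OrthIdx Cfsg.Agent.Lib.Helper51OrthIdx2 Cfsg.Agent.Lib.Helper51OrthIdx3

variable {ι : Type} [Fintype ι] [DecidableEq ι] {F : Type*} [Field F] [Fintype F]
variable (Q : QuadraticForm F (ι → F))

theorem polar_sim (hx : ∃ x, Q x = 1) (g : ↥(GO Q)) (x y : ι → F) :
    QuadraticMap.polar ⇑Q (((g : GL ι F) : Matrix ι ι F) *ᵥ x) (((g : GL ι F) : Matrix ι ι F) *ᵥ y)
      = (mu Q hx g : F) * QuadraticMap.polar ⇑Q x y := by
  unfold QuadraticMap.polar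
  rw [← Matrix.mulVec_add, mu_spec Q hx, mu_spec Q hx, mu_spec Q hx]
  ring

theorem conj_refl_sim (hx : ∃ x, Q x = 1) (g : ↥(GO Q)) (v : ι → F) :
    ((g : GL ι F) : Matrix ι ι F) * reflectionMatrix ⇑Q v
      = reflectionMatrix ⇑Q (((g : GL ι F) : Matrix ι ι F) *ᵥ v) * ((g : GL ι F) : Matrix ι ι F) := by
  apply Matrix.mulVec_injective
  funext x
  rw [← Matrix.mulVec_mulVec, ← Matrix.mulVec_mulVec, refl_mulVec, refl_mulVec, mu_spec Q hx,
    polar_sim Q hx, Matrix.mulVec_sub, Matrix.mulVec_smul]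
  congr 2
  have hμ : ((mu Q hx g : Fˣ) : F) ≠ 0 := (mu Q hx g).ne_zero
  rw [mul_inv]
  calc (Q v)⁻¹ * QuadraticMap.polar ⇑Q v x
      = (((mu Q hx g : Fˣ) : F)⁻¹ * ((mu Q hx g : Fˣ) : F)) * ((Q v)⁻¹ * QuadraticMap.polar ⇑Q v x) := by
        rw [inv_mul_cancel₀ hμ, one_mul]
    _ = _ := by ring

theorem Q_sim_ne (hx : ∃ x, Q x = 1) (g : ↥(GO Q)) {v : ι → F} (hv : Q v ≠ 0) :
    Q (((g : GL ι F) : Matrix ι ι F) *ᵥ v) ≠ 0 := by
  rw [mu_spec Q hx]
  exact mul_ne_zero (mu Q hx g).ne_zero hv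

theorem conj_incO_refl (hx : ∃ x, Q x = 1) (g : ↥(GO Q)) {v : ι → F} (hv : Q v ≠ 0) :
    g * incO Q (reflO Q hv) * g⁻¹ = incO Q (reflO Q (Q_sim_ne Q hx g hv)) := by
  rw [mul_inv_eq_iff_eq_mul]
  apply Subtype.ext
  apply Units.ext
  simp only [Subgroup.coe_mul, Units.val_mul, coe_incO, coe_reflO]
  exact conj_refl_sim Q hx g v

theorem refl_refl_not_mem (h2 : (2 : F) ≠ 0) {u v : ι → F} (hu : Q u ≠ 0) (hv : Q v ≠ 0)
    (h : ¬ IsSquare (Q u * Q v)) : reflO Q hu * reflO Q hv ∉ Omega F ⇑Q := by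
  intro hmem
  have h1 : chi Q 1 (reflO Q hu * reflO Q hv) = 1 :=
    Abelianization.commutator_subset_ker (chi Q 1) hmem
  rw [map_mul] at h1
  obtain ⟨a1, a2⟩ := chi_refl Q h2 one_ne_zero hu
  obtain ⟨b1, b2⟩ := chi_refl Q h2 one_ne_zero hv
  rw [one_mul] at a1 a2 b1 b2
  by_cases hsu : IsSquare (Q u) <;> by_cases hsv : IsSquare (Q v)
  · exact h (hsu.mul hsv)
  · rw [a1 hsu, b2 hsv] at h1; exact absurd h1 (by decide)
  · rw [a2 hsu, b1 hsv] at h1; exact absurd h1 (by decide)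
  · exact h (isSquare_mul_of_not hsu hsv)

theorem card_top_klein : Nat.card (⊤ : Subgroup (ℤˣ × ℤˣ)) = 4 := by
  rw [Nat.card_congr (Subgroup.topEquiv (G := ℤˣ × ℤˣ)).toEquiv, Nat.card_eq_fintype_card]
  rfl

/-- General form: `PGO / PΩ ≅ D₈` when `-1 ∈ Ω`. -/
theorem T3b (G : Good Q) {m : ℕ} (hm : Fintype.card ι = 2 * m) (hneg : NegIn Q) :
    ∃ φ : ↥(pgoAut F ⇑Q) →* DihedralGroup 4, Function.Surjective φ ∧
      φ.ker = (Inn (POmega F ⇑Q)).subgroupOf (pgoAut F ⇑Q) := by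
  haveI := K0_normal Q G
  have hle : Om' Q ⊔ ZZ Q ≤ SO' Q ⊔ ZZ Q := sup_le_sup_right (Om'_le_SO' Q) _
  have hcard : Nat.card (↥(GO Q) ⧸ (Om' Q ⊔ ZZ Q)) = 8 := by
    have h1 := Subgroup.relIndex_mul_index hle
    rw [relIndex_K0_K1 Q G hm hneg, ← ker_psi Q G hm, Subgroup.index_ker,
      MonoidHom.range_eq_top.2 (psi_surjective Q G hm), card_top_klein] at h1
    exact h1.symm
  let f : (↥(GO Q) ⧸ (Om' Q ⊔ ZZ Q)) →* ℤˣ × ℤˣ :=
    QuotientGroup.lift (Om' Q ⊔ ZZ Q) (psi Q G hm) (fun x hx => by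
      have := hle hx
      rw [← ker_psi Q G hm] at this
      exact this)
  have hf : Function.Surjective f := fun y => by
    obtain ⟨x, hx⟩ := psi_surjective Q G hm y
    exact ⟨QuotientGroup.mk x, hx⟩
  obtain ⟨v, hv⟩ := G.exists_one
  have hv0 : Q v ≠ 0 := by rw [hv]; exact one_ne_zero
  obtain ⟨c, hc⟩ := FiniteField.exists_nonsquare (ringChar_ne_two G.two)
  have hc0 : c ≠ 0 := by rintro rfl; exact hc IsSquare.zero
  obtain ⟨g, hg⟩ := exists_mu_eq Q G hm (Units.mk0 c hc0)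
  have hrr : incO Q (reflO Q hv0) * incO Q (reflO Q hv0) = 1 := by
    rw [← map_mul, reflO_mul_self, map_one]
  have hrinv : (incO Q (reflO Q hv0))⁻¹ = incO Q (reflO Q hv0) := inv_eq_of_mul_eq_one_left hrr
  obtain ⟨e⟩ := dihedral_of_hom hcard f hf (QuotientGroup.mk (incO Q (reflO Q hv0))) (QuotientGroup.mk g)
    (by rw [← QuotientGroup.mk_mul, hrr, QuotientGroup.mk_one]) (by
      rw [← QuotientGroup.mk_mul, ← QuotientGroup.mk_mul]
      intro h
      rw [QuotientGroup.eq] at h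
      have e1 : (incO Q (reflO Q hv0) * g)⁻¹ * (g * incO Q (reflO Q hv0)) =
          (g⁻¹ * incO Q (reflO Q hv0) * g⁻¹⁻¹) * incO Q (reflO Q hv0) := by
        rw [_root_.mul_inv_rev, hrinv, inv_inv]
        group
      rw [e1, conj_incO_refl Q G.exists_one, ← map_mul] at h
      have h2 : incO Q (reflO Q (Q_sim_ne Q G.exists_one g⁻¹ hv0) * reflO Q hv0) ∈ SO' Q := by
        rw [incO_mem_SO', map_mul, detO_reflO, detO_reflO]
        simp
      have h3 : incO Q (reflO Q (Q_sim_ne Q G.exists_one g⁻¹ hv0) * reflO Q hv0) ∈ Om' Q := by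
        rw [← K0_inf_SO' Q G hm hneg]
        exact ⟨h, h2⟩
      rw [incO_mem_Om'] at h3
      refine refl_refl_not_mem Q G.two _ _ ?_ h3
      rw [mu_spec Q G.exists_one, map_inv, hg, hv, mul_one, mul_one]
      intro hsq
      apply hc
      have : c = ((Units.mk0 c hc0)⁻¹ : Fˣ) * (c * c) := by
        rw [Units.val_inv_eq_inv_val, Units.val_mk0]
        field_simp
      rw [this]
      exact hsq.mul ⟨c, rfl⟩)
  have h := exists_hom (cAut ⇑Q) (e.toMonoidHom.comp (QuotientGroup.mk' (Om' Q ⊔ ZZ Q)))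
    (e.surjective.comp (QuotientGroup.mk'_surjective _)) (by
      rw [MonoidHom.ker_comp_of_injective _ _ e.injective, QuotientGroup.ker_mk']
      exact ker_le_of Q G _)
  rw [pgoAut_eq, inn_eq]
  rw [MonoidHom.ker_comp_of_injective _ _ e.injective, QuotientGroup.ker_mk', map_sup_ZZ Q G] at h
  exact h

theorem pow_mod_four_eq_three {q : ℕ} (hq : Odd q) (m : ℕ) :
    q ^ m % 4 = 3 ↔ (Odd m ∧ q % 4 = 3) := by
  have h13 : q % 4 = 1 ∨ q % 4 = 3 := by
    obtain ⟨k, rfl⟩ := hq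
    omega
  rw [Nat.pow_mod]
  rcases h13 with h | h
  · rw [h, one_pow]
    constructor
    · intro h'; norm_num at h'
    · rintro ⟨-, h'⟩; omega
  · rw [h]
    rcases Nat.even_or_odd' m with ⟨k, rfl | rfl⟩
    · have : 3 ^ (2 * k) % 4 = 1 := by
        rw [pow_mul, Nat.pow_mod]
        norm_num
      rw [this]
      constructor
      · intro h'; norm_num at h'
      · rintro ⟨h', -⟩
        exact absurd h' (by simp)
    · have : 3 ^ (2 * k + 1) % 4 = 3 := by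
        rw [pow_succ, pow_mul, Nat.mul_mod, Nat.pow_mod]
        norm_num
      rw [this]
      simp

theorem pow_mod_four_eq_one {q : ℕ} (hq : Odd q) (m : ℕ) :
    q ^ m % 4 = 1 ↔ ¬ (Odd m ∧ q % 4 = 3) := by
  rw [← pow_mod_four_eq_three hq]
  have : Odd (q ^ m) := hq.pow
  obtain ⟨k, hk⟩ := this
  omega

end Cfsg.Agent.Lib.Helper51OrthIdx4
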