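import Mathlib
import Cfsg.Agent.Lib.Helper51OrthIdx4
import Cfsg.Agent.Lib.Helper49Fam
import Cfsg.Agent.Lib.Helper49Witt

set_option autoImplicit false
set_option linter.unusedSectionVars false
set_option linter.unusedSimpArgs false

namespace Cfsg.Agent.Lib.Helper51OrthPar

open Cfsg Matrix Module
open scoped MatrixGroups
open Cfsg.Agent.Lib.Helper49Orth Cfsg.Agent.Lib.Helper49Forms Cfsg.Agent.Lib.Helper49All
open Cfsg.Agent.Lib.Helper49Idx Cfsg.Agent.Lib.Helper49Gram Cfsg.Agent.Lib.Helper49CD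
open Cfsg.Agent.Lib.Helper49Fam Cfsg.Agent.Lib.Helper49Witt
open Cfsg.Agent.Lib.Helper18Hyp Cfsg.Agent.Lib.Helper18Hyp2
open Cfsg.Agent.Lib.Helper51OrthAut Cfsg.Agent.Lib.Helper51OrthKer Cfsg.Agent.Lib.Helper51Abs
open Cfsg.Agent.Lib.Helper51OrthIdx Cfsg.Agent.Lib.Helper51OrthIdx2 Cfsg.Agent.Lib.Helper51OrthIdx3
open Cfsg.Agent.Lib.Helper51OrthIdx4

variable {ι : Type} [Fintype ι] [DecidableEq ι] {F : Type*} [Field F]
variable (Q : QuadraticForm F (ι → F))

section General

variable (hnd : (QuadraticMap.polarBilin Q).Nondegenerate) {m : ℕ}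
  (hdim : finrank F (ι → F) = 2 * m)
include hnd hdim

/-- Every totally singular subspace lies in one of half the dimension, if there is one at all. -/
theorem exists_TS_ge {X0 : Submodule F (ι → F)} (hX0 : TS Q X0) (hX0m : finrank F X0 = m)
    {H : Submodule F (ι → F)} (hH : TS Q H) :
    ∃ W : Submodule F (ι → F), TS Q W ∧ finrank F W = m ∧ H ≤ W := by
  refine ⟨H ⊔ (X0 ⊓ LinearMap.BilinForm.orthogonal (QuadraticMap.polarBilin Q) H),
    hH.sup (hX0.mono inf_le_left) inf_le_right, ?_, le_sup_left⟩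
  have h1 := Submodule.finrank_sup_add_finrank_inf_eq H
    (X0 ⊓ LinearMap.BilinForm.orthogonal (QuadraticMap.polarBilin Q) H)
  have h2 := finrank_inf_orth hnd hdim (H := H) hX0 hX0m
  have h3 : H ⊓ (X0 ⊓ LinearMap.BilinForm.orthogonal (QuadraticMap.polarBilin Q) H) = X0 ⊓ H := by
    apply le_antisymm
    · exact le_inf (inf_le_right.trans inf_le_left) inf_le_left
    · exact le_inf inf_le_right (le_inf inf_le_left (inf_le_right.trans hH.le_orth))
  rw [h3] at h1
  omega

theorem isMax_iff {X0 : Submodule F (ι → F)} (hX0 : TS Q X0) (hX0m : finrank F X0 = m)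
    (U : Submodule F (ι → F)) : IsMaxTotallySingular ⇑Q U ↔ TS Q U ∧ finrank F U = m := by
  constructor
  · rintro ⟨hU, hmax⟩
    obtain ⟨W, hW, hWm, hUW⟩ := exists_TS_ge Q hnd hdim hX0 hX0m (H := U) hU
    have := hmax W hW hUW
    rw [← this]
    exact ⟨hW, hWm⟩
  · rintro ⟨hU, hUm⟩
    refine ⟨hU, fun W hW hUW => ?_⟩
    have hW' : TS Q W := hW
    have := hW'.finrank_le hnd hdim
    exact (Submodule.eq_of_le_of_finrank_le hUW (by omega)).symm

theorem par_iso [Fintype F] (h2 : (2 : F) ≠ 0) (x : ↥(isometryGroup F ⇑Q))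
    {U : Submodule F (ι → F)} (hU : TS Q U) (hUm : finrank F U = m) :
    Even (m - finrank F (U ⊓ img Q x U : Submodule F (ι → F))) ↔ detO Q x = 1 := by
  obtain ⟨vs, hvs, rfl⟩ := exists_list_refl Q h2 hnd x
  have h := parity_list Q hnd hdim hU hUm vs hvs
  rw [detO_prod Q vs hvs]
  constructor
  · intro ha
    exact ((Nat.even_add.1 h).1 ha).neg_one_pow
  · intro hd
    exact (Nat.even_add.1 h).2 (even_of_neg_one_pow h2 hd)

end General

theorem image_mul (A B : Matrix ι ι F) (U : Submodule F (ι → F)) :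
    imageSubmodule (A * B) U = imageSubmodule A (imageSubmodule B U) := by
  unfold imageSubmodule
  rw [← Submodule.map_comp, Matrix.toLin'_mul]

theorem image_one (U : Submodule F (ι → F)) : imageSubmodule (1 : Matrix ι ι F) U = U := by
  unfold imageSubmodule
  rw [Matrix.toLin'_one, Submodule.map_id]

theorem image_iso (x : ↥(isometryGroup F ⇑Q)) (U : Submodule F (ι → F)) :
    imageSubmodule ((x : GL ι F) : Matrix ι ι F) U = img Q x U := rfl

theorem image_smul {c : F} (hc : c ≠ 0) (A : Matrix ι ι F) (U : Submodule F (ι → F)) :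
    imageSubmodule (c • A) U = imageSubmodule A U := by
  unfold imageSubmodule
  rw [map_smul]
  exact Submodule.map_smul _ _ c hc

theorem finrank_image (g : GL ι F) (U : Submodule F (ι → F)) :
    finrank F (imageSubmodule (g : Matrix ι ι F) U) = finrank F U := by
  have hinj : Function.Injective (Matrix.toLin' (g : Matrix ι ι F)) := by
    intro x y hxy
    have := congrArg (fun z => ((g⁻¹ : GL ι F) : Matrix ι ι F) *ᵥ z) hxy
    simpa [Matrix.toLin'_apply, Matrix.mulVec_mulVec, ← Units.val_mul] using this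
  exact (Submodule.equivMapOfInjective _ hinj U).finrank_eq.symm

/-- The generic inner-diagonal group: induced by similarities preserving the singular classes. -/
def inndiagGen (Q : (ι → F) → F) : Subgroup (MulAut (POmega F Q)) :=
  autSubgroupOf fun β => ∃ g : GL ι F, g ∈ Geo.quadSimilarityGroup (F := F) Q ∧
    PreservesSingularClasses Q (g : Matrix ι ι F) ∧
    IsInducedBySemilinearPOmega Q g (RingEquiv.refl F) β

/-- Automorphisms induced by the members of a subgroup of the conformal group cut out by a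
predicate. -/
theorem autSubgroupOf_eq (P : GL ι F → Prop) (D : Subgroup ↥(GO Q))
    (hD : ∀ g : ↥(GO Q), P (g : GL ι F) ↔ g ∈ D) :
    autSubgroupOf (fun β : POmega F ⇑Q ≃* POmega F ⇑Q => ∃ g : GL ι F,
      g ∈ Geo.quadSimilarityGroup (F := F) ⇑Q ∧ P g ∧
      IsInducedBySemilinearPOmega ⇑Q g (RingEquiv.refl F) β) = D.map (cAut ⇑Q) := by
  unfold autSubgroupOf
  have : {β : MulAut (POmega F ⇑Q) | ∃ g : GL ι F, g ∈ Geo.quadSimilarityGroup (F := F) ⇑Q ∧ P g ∧
      IsInducedBySemilinearPOmega ⇑Q g (RingEquiv.refl F) β} =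
      ((D.map (cAut ⇑Q) : Subgroup _) : Set _) := by
    ext β
    constructor
    · rintro ⟨g, hg, hP, hβ⟩
      exact ⟨⟨g, hg⟩, (hD ⟨g, hg⟩).1 hP, ((induced_iff ⇑Q ⟨g, hg⟩ β).1 hβ).symm⟩
    · rintro ⟨g, hg, rfl⟩
      exact ⟨g, g.2, (hD g).2 hg, (induced_iff ⇑Q g _).2 rfl⟩
  rw [this, Subgroup.closure_eq]

/-- Descending an identification of a section of `X` to the image under `c`. -/
theorem exists_hom_sub {X Y A : Type*} [Group X] [Group Y] [Group A] (c : X →* Y)
    (D K0 : Subgroup X) [K0.Normal] (hK : K0 ≤ D) (hker : c.ker ≤ K0)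
    (e : (↥D ⧸ K0.subgroupOf D) ≃* A) :
    ∃ φ : ↥(D.map c) →* A, Function.Surjective φ ∧ φ.ker = (K0.map c).subgroupOf (D.map c) := by
  have h := exists_hom (c.comp D.subtype) (e.toMonoidHom.comp (QuotientGroup.mk' (K0.subgroupOf D)))
    (e.surjective.comp (QuotientGroup.mk'_surjective _)) (by
      rw [MonoidHom.ker_comp_of_injective (QuotientGroup.mk' (K0.subgroupOf D)) e.toMonoidHom
        e.injective, QuotientGroup.ker_mk']
      intro x hx
      exact hker hx)
  have hr : (c.comp D.subtype).range = D.map c := by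
    rw [MonoidHom.range_comp, Subgroup.range_subtype]
  rw [MonoidHom.ker_comp_of_injective (QuotientGroup.mk' (K0.subgroupOf D)) e.toMonoidHom e.injective,
    QuotientGroup.ker_mk', ← Subgroup.map_map,
    Subgroup.subgroupOf_map_subtype, inf_eq_left.2 hK, hr] at h
  exact h

theorem cyclic_equiv {K : Type*} [Group K] {n : ℕ} (hn : n ≠ 0) (hK : Nat.card K = n) (x : K)
    (hx : orderOf x = n) : Nonempty (K ≃* Multiplicative (ZMod n)) := by
  subst hK
  haveI : Finite K := Nat.finite_of_card_ne_zero hn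
  haveI : IsCyclic K := isCyclic_of_orderOf_eq_card x hx
  exact ⟨(zmodCyclicMulEquiv ‹_›).symm⟩

theorem two_equiv {K : Type*} [Group K] (hK : Nat.card K = 2) :
    Nonempty (K ≃* Multiplicative (ZMod 2)) := by
  haveI : Fact (Nat.Prime 2) := ⟨Nat.prime_two⟩
  haveI : IsCyclic K := isCyclic_of_prime_card hK
  have e := (zmodCyclicMulEquiv (G := K) ‹_›).symm
  rw [hK] at e
  exact ⟨e⟩

theorem four_equiv {K : Type*} [Group K] (hK : Nat.card K = 4) (x : K) (hx : x * x ≠ 1) :
    Nonempty (K ≃* Multiplicative (ZMod 4)) := by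
  apply cyclic_equiv (by norm_num) hK x
  have h1 : orderOf x ∣ 4 := hK ▸ orderOf_dvd_natCard x
  have h2 : orderOf x ∈ Nat.divisors 4 := Nat.mem_divisors.2 ⟨h1, by norm_num⟩
  have h3 : Nat.divisors 4 = {1, 2, 4} := by decide
  rw [h3] at h2
  simp only [Finset.mem_insert, Finset.mem_singleton] at h2
  rcases h2 with h | h | h
  · exfalso; apply hx
    rw [orderOf_eq_one_iff] at h
    rw [h, one_mul]
  · exfalso; apply hx
    rw [← pow_two, ← h, pow_orderOf_eq_one]
  · exact h

theorem klein_of_two {K : Type*} [Group K] (hK : Nat.card K = 4) (a b : K) (ha : a * a = 1)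
    (hb : b * b = 1) (ha1 : a ≠ 1) (hb1 : b ≠ 1) (hab : a ≠ b) :
    Nonempty (K ≃* Multiplicative (ZMod 2 × ZMod 2)) := by
  classical
  haveI : Finite K := Nat.finite_of_card_ne_zero (by rw [hK]; norm_num)
  haveI : Fintype K := Fintype.ofFinite K
  have hnc : ¬ IsCyclic K := by
    intro hc
    have h := IsCyclic.card_pow_eq_one_le (α := K) (n := 2) (by norm_num)
    have hsub : ({1, a, b} : Finset K) ⊆ Finset.univ.filter (fun x : K => x ^ 2 = 1) := by
      intro x hx
      simp only [Finset.mem_insert, Finset.mem_singleton] at hx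
      simp only [Finset.mem_filter, Finset.mem_univ, true_and]
      rcases hx with rfl | rfl | rfl
      · simp
      · rw [pow_two, ha]
      · rw [pow_two, hb]
    have h3 : ({1, a, b} : Finset K).card = 3 := by
      rw [Finset.card_insert_of_notMem, Finset.card_insert_of_notMem, Finset.card_singleton]
      · simpa using hab
      · simp only [Finset.mem_insert, Finset.mem_singleton, not_or]
        exact ⟨ha1.symm, hb1.symm⟩
    have := Finset.card_le_card hsub
    omega
  have hexp := (not_isCyclic_iff_exponent_eq_prime Nat.prime_two (by rw [hK]; norm_num)).1 hnc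
  haveI : IsKleinFour K := ⟨hK, hexp⟩
  exact IsKleinFour.nonempty_mulEquiv

end Cfsg.Agent.Lib.Helper51OrthPar
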