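import Mathlib
import Cfsg.Agent.Lib.Helper51OrthPar

set_option autoImplicit false
set_option linter.unusedSectionVars false
set_option linter.unusedSimpArgs false

namespace Cfsg.Agent.Lib.Helper51OrthDiag

open Cfsg Matrix Module
open scoped MatrixGroups
open Cfsg.Agent.Lib.Helper49Orth Cfsg.Agent.Lib.Helper49Forms Cfsg.Agent.Lib.Helper49All
open Cfsg.Agent.Lib.Helper49Idx Cfsg.Agent.Lib.Helper49Gram Cfsg.Agent.Lib.Helper49CD
open Cfsg.Agent.Lib.Helper51OrthAut Cfsg.Agent.Lib.Helper51OrthKer Cfsg.Agent.Lib.Helper51Abs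
open Cfsg.Agent.Lib.Helper51OrthIdx Cfsg.Agent.Lib.Helper51OrthIdx2 Cfsg.Agent.Lib.Helper51OrthIdx3
open Cfsg.Agent.Lib.Helper51OrthIdx4 Cfsg.Agent.Lib.Helper51OrthPar

variable {ι : Type} [Fintype ι] [DecidableEq ι] {F : Type*} [Field F] [Fintype F]
variable (Q : QuadraticForm F (ι → F))

/-- The proper similitudes. -/
noncomputable abbrev DD (G : Good Q) (m : ℕ) : Subgroup ↥(GO Q) := (delta Q G.exists_one m).ker

theorem K0_le_DD (G : Good Q) {m : ℕ} (hm : Fintype.card ι = 2 * m) : Om' Q ⊔ ZZ Q ≤ DD Q G m := by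
  rw [sup_le_iff]
  constructor
  · intro x hx
    exact ((mem_SO'_iff Q G.exists_one m x).1 (Om'_le_SO' Q hx)).2
  · intro x hx
    obtain ⟨c, rfl⟩ := exists_scal Q hx
    exact delta_scal Q _ hm c

theorem index_DD (G : Good Q) {m : ℕ} (hm : Fintype.card ι = 2 * m) : (DD Q G m).index = 2 := by
  obtain ⟨x, hx⟩ := G.exists_one
  have hx0 : Q x ≠ 0 := by rw [hx]; exact one_ne_zero
  rw [Subgroup.index_eq_two_iff]
  refine ⟨incO Q (reflO Q hx0), fun b => ?_⟩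
  simp only [MonoidHom.mem_ker, map_mul, delta_incO, detO_reflO]
  have hne := neg_one_ne_one G.two
  rcases delta_cases Q G.nondeg G.exists_one hm b with h | h <;> rw [h]
  · right
    exact ⟨rfl, by simpa using hne⟩
  · left
    exact ⟨by simp, hne⟩

theorem index_K1 (G : Good Q) {m : ℕ} (hm : Fintype.card ι = 2 * m) :
    (SO' Q ⊔ ZZ Q).index = 4 := by
  rw [← ker_psi Q G hm, Subgroup.index_ker, MonoidHom.range_eq_top.2 (psi_surjective Q G hm),
    card_top_klein]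

theorem index_K0_of_neg (G : Good Q) {m : ℕ} (hm : Fintype.card ι = 2 * m) (hneg : NegIn Q) :
    (Om' Q ⊔ ZZ Q).index = 8 := by
  have hle : Om' Q ⊔ ZZ Q ≤ SO' Q ⊔ ZZ Q := sup_le_sup_right (Om'_le_SO' Q) _
  have h1 := Subgroup.relIndex_mul_index hle
  rw [relIndex_K0_K1 Q G hm hneg, index_K1 Q G hm] at h1
  exact h1.symm

theorem index_K0_of_not (G : Good Q) {m : ℕ} (hm : Fintype.card ι = 2 * m) (hneg : ¬ NegIn Q) :
    (Om' Q ⊔ ZZ Q).index = 4 := by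
  have : Om' Q ⊔ ZZ Q = SO' Q ⊔ ZZ Q :=
    le_antisymm (sup_le_sup_right (Om'_le_SO' Q) _) (sup_le (SO'_le_K0 Q G hm hneg) le_sup_right)
  rw [this, index_K1 Q G hm]

theorem card_quot (G : Good Q) {m : ℕ} (hm : Fintype.card ι = 2 * m) :
    Nat.card (↥(DD Q G m) ⧸ (Om' Q ⊔ ZZ Q).subgroupOf (DD Q G m)) * 2 = (Om' Q ⊔ ZZ Q).index := by
  have h1 := Subgroup.relIndex_mul_index (K0_le_DD Q G hm)
  rw [index_DD Q G hm] at h1
  exact h1

theorem not_mem_K0_of_mu (G : Good Q) {m : ℕ} (hm : Fintype.card ι = 2 * m) {g : ↥(GO Q)}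
    (hg : ¬ IsSquare ((mu Q G.exists_one g : Fˣ) : F)) : g ∉ Om' Q ⊔ ZZ Q := by
  intro h
  have h1 : g ∈ SO' Q ⊔ ZZ Q := sup_le_sup_right (Om'_le_SO' Q) _ h
  rw [← ker_psi Q G hm, MonoidHom.mem_ker, psi_eq_one_iff] at h1
  exact hg h1.1

/-- A reflection does not commute, modulo `Ω Z`, with a similitude of non-square multiplier. -/
theorem not_comm (G : Good Q) {m : ℕ} (hm : Fintype.card ι = 2 * m) (hneg : NegIn Q)
    {v : ι → F} (hv : Q v = 1) (hv0 : Q v ≠ 0) {g : ↥(GO Q)}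
    (hg : ¬ IsSquare ((mu Q G.exists_one g : Fˣ) : F)) :
    (incO Q (reflO Q hv0) * g)⁻¹ * (g * incO Q (reflO Q hv0)) ∉ Om' Q ⊔ ZZ Q := by
  intro h
  have hrr : incO Q (reflO Q hv0) * incO Q (reflO Q hv0) = 1 := by
    rw [← map_mul, reflO_mul_self, map_one]
  have hrinv : (incO Q (reflO Q hv0))⁻¹ = incO Q (reflO Q hv0) := inv_eq_of_mul_eq_one_left hrr
  have e1 : (incO Q (reflO Q hv0) * g)⁻¹ * (g * incO Q (reflO Q hv0)) =
      (g⁻¹ * incO Q (reflO Q hv0) * g⁻¹⁻¹) * incO Q (reflO Q hv0) := by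
    rw [_root_.mul_inv_rev, hrinv, inv_inv]
    group
  rw [e1, conj_incO_refl Q G.exists_one, ← map_mul] at h
  have h2 : incO Q (reflO Q (Q_sim_ne Q G.exists_one g⁻¹ hv0) * reflO Q hv0) ∈ SO' Q := by
    rw [incO_mem_SO', map_mul, detO_reflO, detO_reflO]
    simp
  have h3 : incO Q (reflO Q (Q_sim_ne Q G.exists_one g⁻¹ hv0) * reflO Q hv0) ∈ Om' Q := by
    rw [← K0_inf_SO' Q G hm hneg]
    exact ⟨h, h2⟩
  rw [incO_mem_Om'] at h3
  refine refl_refl_not_mem Q G.two _ _ ?_ h3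
  rw [mu_spec Q G.exists_one, map_inv, hv, mul_one, mul_one]
  intro hsq
  apply hg
  have hc0 : ((mu Q G.exists_one g : Fˣ) : F) ≠ 0 := (mu Q G.exists_one g).ne_zero
  have : ((mu Q G.exists_one g : Fˣ) : F) = (((mu Q G.exists_one g)⁻¹ : Fˣ) : F) *
      (((mu Q G.exists_one g : Fˣ) : F) * ((mu Q G.exists_one g : Fˣ) : F)) := by
    rw [Units.val_inv_eq_inv_val]
    field_simp
  rw [this]
  exact hsq.mul ⟨_, rfl⟩

theorem T4a (G : Good Q) {m : ℕ} (hm : Fintype.card ι = 2 * m) (hneg : ¬ NegIn Q) :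
    ∃ φ : ↥((DD Q G m).map (cAut ⇑Q)) →* Multiplicative (ZMod 2), Function.Surjective φ ∧
      φ.ker = (Inn (POmega F ⇑Q)).subgroupOf ((DD Q G m).map (cAut ⇑Q)) := by
  haveI := K0_normal Q G
  have hc := card_quot Q G hm
  rw [index_K0_of_not Q G hm hneg] at hc
  obtain ⟨e⟩ := two_equiv (K := ↥(DD Q G m) ⧸ (Om' Q ⊔ ZZ Q).subgroupOf (DD Q G m)) (by omega)
  have h := exists_hom_sub (cAut ⇑Q) (DD Q G m) (Om' Q ⊔ ZZ Q) (K0_le_DD Q G hm) (ker_le_of Q G _) e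
  rw [map_sup_ZZ Q G, ← inn_eq] at h
  exact h

theorem T4c (G : Good Q) {m : ℕ} (hm : Fintype.card ι = 2 * m) (hneg : NegIn Q) (b : ↥(GO Q))
    (hb : ¬ IsSquare ((mu Q G.exists_one b : Fˣ) : F)) (hbb : b * b ∈ Om' Q ⊔ ZZ Q)
    (hd : delta Q G.exists_one m b ≠ 1) :
    ∃ φ : ↥((DD Q G m).map (cAut ⇑Q)) →* Multiplicative (ZMod 4), Function.Surjective φ ∧
      φ.ker = (Inn (POmega F ⇑Q)).subgroupOf ((DD Q G m).map (cAut ⇑Q)) := by
  haveI := K0_normal Q G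
  have hc := card_quot Q G hm
  rw [index_K0_of_neg Q G hm hneg] at hc
  obtain ⟨v, hv⟩ := G.exists_one
  have hv0 : Q v ≠ 0 := by rw [hv]; exact one_ne_zero
  have hd' : delta Q G.exists_one m b = -1 :=
    (delta_cases Q G.nondeg G.exists_one hm b).resolve_left hd
  have hmem : b * incO Q (reflO Q hv0) ∈ DD Q G m := by
    rw [MonoidHom.mem_ker, map_mul, hd', delta_incO, detO_reflO]
    simp
  have hrr : incO Q (reflO Q hv0) * incO Q (reflO Q hv0) = 1 := by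
    rw [← map_mul, reflO_mul_self, map_one]
  have hrinv : (incO Q (reflO Q hv0))⁻¹ = incO Q (reflO Q hv0) := inv_eq_of_mul_eq_one_left hrr
  obtain ⟨e⟩ := four_equiv (K := ↥(DD Q G m) ⧸ (Om' Q ⊔ ZZ Q).subgroupOf (DD Q G m)) (by omega)
    (QuotientGroup.mk ⟨_, hmem⟩) (by
      rw [← QuotientGroup.mk_mul]
      intro h
      rw [QuotientGroup.eq_one_iff, Subgroup.mem_subgroupOf] at h
      have h' : b * incO Q (reflO Q hv0) * (b * incO Q (reflO Q hv0)) ∈ Om' Q ⊔ ZZ Q := h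
      apply not_comm Q G hm hneg hv hv0 hb
      have e1 : (incO Q (reflO Q hv0) * b)⁻¹ * (b * incO Q (reflO Q hv0)) =
          (b * b)⁻¹ * (b * incO Q (reflO Q hv0) * (b * incO Q (reflO Q hv0))) := by
        rw [_root_.mul_inv_rev, hrinv]
        group
      rw [e1]
      exact mul_mem (inv_mem hbb) h')
  have h := exists_hom_sub (cAut ⇑Q) (DD Q G m) (Om' Q ⊔ ZZ Q) (K0_le_DD Q G hm) (ker_le_of Q G _) e
  rw [map_sup_ZZ Q G, ← inn_eq] at h
  exact h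

theorem T4b (G : Good Q) {m : ℕ} (hm : Fintype.card ι = 2 * m) (hneg : NegIn Q) (b : ↥(GO Q))
    (hb : ¬ IsSquare ((mu Q G.exists_one b : Fˣ) : F)) (hbb : b * b ∈ Om' Q ⊔ ZZ Q)
    (hd : delta Q G.exists_one m b = 1) :
    ∃ φ : ↥((DD Q G m).map (cAut ⇑Q)) →* Multiplicative (ZMod 2 × ZMod 2), Function.Surjective φ ∧
      φ.ker = (Inn (POmega F ⇑Q)).subgroupOf ((DD Q G m).map (cAut ⇑Q)) := by
  haveI := K0_normal Q G
  have hc := card_quot Q G hm
  rw [index_K0_of_neg Q G hm hneg] at hc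
  obtain ⟨v, hv⟩ := G.exists_one
  have hv0 : Q v ≠ 0 := by rw [hv]; exact one_ne_zero
  obtain ⟨c, hcn⟩ := FiniteField.exists_nonsquare (ringChar_ne_two G.two)
  have hc0 : c ≠ 0 := by rintro rfl; exact hcn IsSquare.zero
  obtain ⟨w, hw⟩ := exists_Q_eq Q G.two G.nondeg (two_le_card Q G) c
  have hw0 : Q w ≠ 0 := by rw [hw]; exact hc0
  have hdet : detO Q (reflO Q hv0 * reflO Q hw0) = 1 := by
    rw [map_mul, detO_reflO, detO_reflO]; simp
  have hsS : incO Q (reflO Q hv0 * reflO Q hw0) ∈ SO' Q := (incO_mem_SO' Q _).2 hdet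
  have hsD : incO Q (reflO Q hv0 * reflO Q hw0) ∈ DD Q G m :=
    ((mem_SO'_iff Q G.exists_one m _).1 hsS).2
  have hsn : reflO Q hv0 * reflO Q hw0 ∉ Omega F ⇑Q :=
    refl_refl_not_mem Q G.two _ _ (by rw [hv, hw, one_mul]; exact hcn)
  have hsK : incO Q (reflO Q hv0 * reflO Q hw0) ∉ Om' Q ⊔ ZZ Q := by
    intro h
    have : incO Q (reflO Q hv0 * reflO Q hw0) ∈ Om' Q := by
      rw [← K0_inf_SO' Q G hm hneg]
      exact ⟨h, hsS⟩
    exact hsn ((incO_mem_Om' Q _).1 this)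
  have hss : incO Q (reflO Q hv0 * reflO Q hw0) * incO Q (reflO Q hv0 * reflO Q hw0) ∈
      Om' Q ⊔ ZZ Q := by
    apply Subgroup.mem_sup_left
    rw [← map_mul, incO_mem_Om', mem_Omega_iff Q G.two G.nondeg _ (by rw [map_mul, hdet, one_mul]),
      map_mul]
    exact Int.units_mul_self _
  obtain ⟨e⟩ := klein_of_two (K := ↥(DD Q G m) ⧸ (Om' Q ⊔ ZZ Q).subgroupOf (DD Q G m)) (by omega)
    (QuotientGroup.mk ⟨b, hd⟩) (QuotientGroup.mk ⟨_, hsD⟩)
    (by
      rw [← QuotientGroup.mk_mul, QuotientGroup.eq_one_iff, Subgroup.mem_subgroupOf]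
      exact hbb)
    (by
      rw [← QuotientGroup.mk_mul, QuotientGroup.eq_one_iff, Subgroup.mem_subgroupOf]
      exact hss)
    (by
      intro h
      rw [QuotientGroup.eq_one_iff, Subgroup.mem_subgroupOf] at h
      exact not_mem_K0_of_mu Q G hm hb h)
    (by
      intro h
      rw [QuotientGroup.eq_one_iff, Subgroup.mem_subgroupOf] at h
      exact hsK h)
    (by
      intro h
      rw [QuotientGroup.eq, Subgroup.mem_subgroupOf] at h
      have h' : b⁻¹ * incO Q (reflO Q hv0 * reflO Q hw0) ∈ Om' Q ⊔ ZZ Q := h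
      refine not_mem_K0_of_mu Q G hm ?_ h'
      rw [map_mul, mu_incO, mul_one, map_inv]
      intro hsq
      apply hb
      have hc0 : ((mu Q G.exists_one b : Fˣ) : F) ≠ 0 := (mu Q G.exists_one b).ne_zero
      have : ((mu Q G.exists_one b : Fˣ) : F) = (((mu Q G.exists_one b)⁻¹ : Fˣ) : F) *
          (((mu Q G.exists_one b : Fˣ) : F) * ((mu Q G.exists_one b : Fˣ) : F)) := by
        rw [Units.val_inv_eq_inv_val]
        field_simp
      rw [this]
      exact hsq.mul ⟨_, rfl⟩)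
  have h := exists_hom_sub (cAut ⇑Q) (DD Q G m) (Om' Q ⊔ ZZ Q) (K0_le_DD Q G hm) (ker_le_of Q G _) e
  rw [map_sup_ZZ Q G, ← inn_eq] at h
  exact h

end Cfsg.Agent.Lib.Helper51OrthDiag
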