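import Mathlib
import Cfsg.Agent.Lib.Helper18GamB
import Cfsg.Agent.Lib.Helper51OrthDiag

/-!
# The index of `Ω·Z` in the conformal group: odd dimension
-/

set_option autoImplicit false
set_option linter.unusedSectionVars false

namespace Cfsg.Agent.Lib.Helper18GamC

open Cfsg Matrix Module
open scoped MatrixGroups
open Cfsg.Agent.Lib.Helper49Orth Cfsg.Agent.Lib.Helper49Idx
  Cfsg.Agent.Lib.Helper51OrthAut Cfsg.Agent.Lib.Helper51OrthKer Cfsg.Agent.Lib.Helper51OrthIdx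
  Cfsg.Agent.Lib.Helper51OrthIdx2 Cfsg.Agent.Lib.Helper51OrthIdx3
  Cfsg.Agent.Lib.Helper18GamA Cfsg.Agent.Lib.Helper18GamB

variable {F : Type*} [Field F] [Fintype F]
variable {ι : Type} [Fintype ι] [DecidableEq ι] (Q : QuadraticForm F (ι → F))

theorem scal_comm (c : Fˣ) (g : ↥(GO Q)) : g * scal Q c = scal Q c * g := by
  apply Subtype.ext
  apply Units.ext
  rw [Subgroup.coe_mul, Subgroup.coe_mul, Units.val_mul, Units.val_mul, coe_scal]
  simp

instance ZZ_normal' : (ZZ Q).Normal := ⟨fun z hz g => by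
  obtain ⟨c, rfl⟩ := exists_scal Q hz
  rw [scal_comm, mul_inv_cancel_right]
  exact scal_mem Q c⟩

theorem mem_sup_ZZ' (H : Subgroup ↥(GO Q)) {x : ↥(GO Q)} (hx : x ∈ H ⊔ ZZ Q) :
    ∃ w ∈ H, ∃ c : Fˣ, x = w * scal Q c := by
  have : x ∈ ((H ⊔ ZZ Q : Subgroup ↥(GO Q)) : Set ↥(GO Q)) := hx
  rw [Subgroup.mul_normal] at this
  obtain ⟨w, hw, z, hz, rfl⟩ := this
  obtain ⟨c, rfl⟩ := exists_scal Q hz
  exact ⟨w, hw, c, rfl⟩

theorem scal_one : scal Q (1 : Fˣ) = 1 := by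
  apply Subtype.ext
  apply Units.ext
  rw [coe_scal]
  simp

theorem scal_mul (c d : Fˣ) : scal Q (c * d) = scal Q c * scal Q d := by
  apply Subtype.ext
  apply Units.ext
  rw [Subgroup.coe_mul, Units.val_mul, coe_scal, coe_scal, coe_scal]
  rw [Matrix.smul_mul, Matrix.one_mul, smul_smul, Units.val_mul]

theorem scal_inv (c : Fˣ) : scal Q c⁻¹ = (scal Q c)⁻¹ := by
  rw [eq_inv_iff_mul_eq_one, ← scal_mul, inv_mul_cancel, scal_one]

section Odd

variable (hQ : (QuadraticMap.polarBilin Q).Nondegenerate) (hx : ∃ x, Q x = 1) {m : ℕ}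
  (hm : Fintype.card ι = 2 * m + 1)

include hQ hm in
theorem delta_mul_self_odd (g : ↥(GO Q)) : delta Q hx m g * delta Q hx m g = mu Q hx g := by
  have h := det_sq_of_sim Q hQ _ _ (mu_spec Q hx g)
  have h' : Matrix.GeneralLinearGroup.det (g : GL ι F) * Matrix.GeneralLinearGroup.det (g : GL ι F) =
      (mu Q hx g) ^ (2 * m + 1) := by
    apply Units.ext
    rw [Units.val_mul, Units.val_pow_eq_pow_val, ← hm]
    exact h
  rw [delta_apply, mul_mul_mul_comm, h', ← pow_two, ← pow_mul, inv_pow, mul_comm m 2, pow_succ,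
    mul_comm, ← mul_assoc, inv_mul_cancel, one_mul]

include hm in
theorem delta_scal_odd (c : Fˣ) : delta Q hx m (scal Q c) = c := by
  rw [delta_apply, mu_scal]
  have : Matrix.GeneralLinearGroup.det ((scal Q c : ↥(GO Q)) : GL ι F) = c ^ (2 * m + 1) := by
    apply Units.ext
    rw [Matrix.GeneralLinearGroup.val_det_apply, coe_scal, Matrix.det_smul, Matrix.det_one, mul_one, hm,
      Units.val_pow_eq_pow_val]
  rw [this, ← pow_two, inv_pow, ← pow_mul, pow_succ, mul_comm, ← mul_assoc, inv_mul_cancel, one_mul]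

include hQ hx hm in
theorem sup_eq_top_odd : SO' Q ⊔ ZZ Q = ⊤ := by
  rw [eq_top_iff]
  intro g _
  have h1 : g = (g * (scal Q (delta Q hx m g))⁻¹) * scal Q (delta Q hx m g) := by
    rw [inv_mul_cancel_right]
  rw [h1]
  apply Subgroup.mul_mem_sup _ (scal_mem Q _)
  rw [mem_SO'_iff Q hx m]
  constructor
  · rw [map_mul, map_inv, mu_scal, delta_mul_self_odd Q hQ hx hm, mul_inv_cancel]
  · rw [map_mul, map_inv, delta_scal_odd Q hx hm, mul_inv_cancel]

include hx hm in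
theorem K0_inf_SO'_odd : (Om' Q ⊔ ZZ Q) ⊓ SO' Q = Om' Q := by
  apply le_antisymm
  · rintro x ⟨hx1, hx2⟩
    obtain ⟨w, hw, c, rfl⟩ := mem_sup_ZZ' Q _ hx1
    have hw2 := Om'_le_SO' Q hw
    have h1 := ((mem_SO'_iff Q hx m _).1 hx2).2
    rw [map_mul, ((mem_SO'_iff Q hx m _).1 hw2).2, one_mul, delta_scal_odd Q hx hm] at h1
    rw [h1, scal_one, mul_one]
    exact hw
  · exact le_inf le_sup_left (Om'_le_SO' Q)

include hQ in
theorem detO_cases' (x : ↥(isometryGroup F ⇑Q)) : detO Q x = 1 ∨ detO Q x = -1 := by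
  have h := det_sq_of_sim Q hQ ((x : GL ι F) : Matrix ι ι F) 1 (fun v => by
    rw [iso_apply (Q := ⇑Q), one_mul])
  rw [one_pow] at h
  rcases mul_self_eq_one_iff.1 h with h1 | h1
  · left; exact Units.ext h1
  · right; exact Units.ext (by rw [detO_apply, h1]; simp)

include hQ hx in
theorem index_ker_detO' (h2 : (2 : F) ≠ 0) : (detO Q).ker.index = 2 := by
  obtain ⟨x, hx⟩ := hx
  have hx0 : Q x ≠ 0 := by rw [hx]; exact one_ne_zero
  rw [Subgroup.index_eq_two_iff]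
  refine ⟨reflO Q hx0, fun b => ?_⟩
  simp only [MonoidHom.mem_ker, map_mul, detO_reflO]
  have hne := neg_one_ne_one h2
  rcases detO_cases' Q hQ b with h | h <;> rw [h]
  · right
    exact ⟨rfl, by simpa using hne⟩
  · left
    exact ⟨by simp, hne⟩

include hQ hx in
theorem relIndex_Om_SO' (h2 : (2 : F) ≠ 0) (hcard : 2 ≤ Fintype.card ι) :
    (Om' Q).relIndex (SO' Q) = 2 := by
  rw [SO'_eq, Om'_eq, Subgroup.relIndex_map_map_of_injective _ _ (incO_injective Q)]
  have h1 := Subgroup.relIndex_mul_index (Omega_le_ker_det Q)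
  rw [index_Omega Q h2 hQ hcard, index_ker_detO' Q hQ hx h2] at h1
  omega

include hQ hx hm in
theorem index_K0_odd (h2 : (2 : F) ≠ 0) (hcard : 2 ≤ Fintype.card ι) :
    (Om' Q ⊔ ZZ Q).index = 2 := by
  have h1 : (⊤ : Subgroup ↥(GO Q)) = (Om' Q ⊔ ZZ Q) ⊔ SO' Q := by
    rw [eq_comm, eq_top_iff, ← sup_eq_top_odd Q hQ hx hm]
    exact sup_le le_sup_right (le_sup_right.trans le_sup_left)
  rw [← Subgroup.relIndex_top_right, h1, Subgroup.relIndex_sup_left, ← Subgroup.inf_relIndex_right,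
    K0_inf_SO'_odd Q hx hm, relIndex_Om_SO' Q hQ hx h2 hcard]

end Odd

end Cfsg.Agent.Lib.Helper18GamC
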