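import Mathlib
import Cfsg.Agent.Lib.Helper18GamC
import Cfsg.Agent.Lib.Helper49All
import Cfsg.Agent.Lib.Helper49Disc
import Cfsg.Agent.Lib.Helper49Rank

/-!
# Minus type forms are all isometric; index of `Ω·Z` in characteristic two
-/

set_option autoImplicit false
set_option linter.unusedSectionVars false

namespace Cfsg.Agent.Lib.Helper18GamD

open Cfsg Matrix Module
open scoped MatrixGroups
open Cfsg.Agent.Lib.Helper49Orth Cfsg.Agent.Lib.Helper49Idx Cfsg.Agent.Lib.Helper49Forms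
  Cfsg.Agent.Lib.Helper49Disc Cfsg.Agent.Lib.Helper49All
  Cfsg.Agent.Lib.Helper51OrthAut Cfsg.Agent.Lib.Helper51OrthKer Cfsg.Agent.Lib.Helper51OrthIdx
  Cfsg.Agent.Lib.Helper51OrthIdx2 Cfsg.Agent.Lib.Helper51OrthIdx3
  Cfsg.Agent.Lib.Helper18GamA Cfsg.Agent.Lib.Helper18GamB Cfsg.Agent.Lib.Helper18GamC

variable {F : Type*} [Field F] [Fintype F]

/-- Anisotropic binary form. -/
def Aniso (a b : F) : Prop := ∀ z₁ z₂ : F, z₁ ^ 2 + a * z₁ * z₂ + b * z₂ ^ 2 = 0 → z₁ = 0 ∧ z₂ = 0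

theorem exists_st_odd (h2 : (2 : F) ≠ 0) {a b a' b' : F} (hab : Aniso a b) (hab' : Aniso a' b') :
    ∃ s t : F, t ≠ 0 ∧ a' = 2 * s + a * t ∧ b' = s ^ 2 + a * s * t + b * t ^ 2 := by
  have hD := not_isSquare_disc h2 hab
  have hD' := not_isSquare_disc h2 hab'
  have hD0 : a ^ 2 - 4 * b ≠ 0 := by
    intro h
    rw [h] at hD
    exact hD IsSquare.zero
  have hD0' : a' ^ 2 - 4 * b' ≠ 0 := by
    intro h
    rw [h] at hD'
    exact hD' IsSquare.zero
  have hsq : IsSquare ((a' ^ 2 - 4 * b') * (a ^ 2 - 4 * b)) := by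
    by_contra hcon
    exact hcon ((isSquare_mul_nonsquare_iff hD0' hD).2 hD')
  obtain ⟨r, hr⟩ := hsq
  have hr0 : r ≠ 0 := by
    rintro rfl
    rw [mul_zero] at hr
    exact (mul_ne_zero hD0' hD0) hr
  refine ⟨(a' - a * (r / (a ^ 2 - 4 * b))) / 2, r / (a ^ 2 - 4 * b), div_ne_zero hr0 hD0, ?_, ?_⟩
  · field_simp
    ring
  · have h4 : (4 : F) ≠ 0 := by
      have : (4 : F) = 2 * 2 := by norm_num
      rw [this]
      exact mul_ne_zero h2 h2
    field_simp
    have e : r ^ 2 = (a' ^ 2 - 4 * b') * (a ^ 2 - 4 * b) := by rw [hr]; ring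
    linear_combination (a ^ 2 - 4 * b) * e

theorem aniso_a_ne_zero [CharP F 2] {a b : F} (hab : Aniso a b) : a ≠ 0 := by
  rintro rfl
  obtain ⟨c, hc⟩ := Cfsg.Agent.Lib.Helper49CharTwoA.exists_sqrt b
  have := hab c 1 (by
    rw [← hc]
    have h2 : c ^ 2 + 0 * c * 1 + c * c * 1 ^ 2 = c * c + c * c := by ring
    rw [h2]
    exact CharTwo.add_self_eq_zero _)
  exact one_ne_zero this.2

/-- The Artin–Schreier type map. -/
def wp [CharP F 2] (a : F) : F →+ F where
  toFun s := s ^ 2 + a * s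
  map_zero' := by simp
  map_add' x y := by
    rw [CharTwo.add_sq]
    ring

theorem index_range_wp [CharP F 2] {a : F} (ha : a ≠ 0) : (wp a).range.index = 2 := by
  have h1 : Nat.card (wp a).ker = 2 := by
    have : ((wp a).ker : Set F) = {0, a} := by
      ext s
      simp only [SetLike.mem_coe, AddMonoidHom.mem_ker, Set.mem_insert_iff, Set.mem_singleton_iff]
      change s ^ 2 + a * s = 0 ↔ _
      constructor
      · intro h
        have h3 : s * (s + a) = 0 := by linear_combination h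
        rcases mul_eq_zero.1 h3 with h4 | h4
        · left; exact h4
        · right
          exact (CharTwo.add_eq_zero.1 h4)
      · rintro (rfl | rfl)
        · simp
        · rw [pow_two]
          exact CharTwo.add_self_eq_zero _
    have h5 : Nat.card (wp a).ker = Nat.card ((wp a).ker : Set F) := rfl
    rw [h5, this, Nat.card_coe_set_eq, Set.ncard_pair ha.symm]
  have h2 := AddSubgroup.card_mul_index (wp a).ker
  have h3 := AddSubgroup.card_mul_index (wp a).range
  rw [AddSubgroup.index_ker, h1] at h2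
  have h4 : 0 < Nat.card (wp a).range := Nat.card_pos
  have h5 : Nat.card (wp a).range * (wp a).range.index = Nat.card (wp a).range * 2 := by
    rw [h3, ← h2, mul_comm]
  exact Nat.eq_of_mul_eq_mul_left h4 h5

theorem exists_st_two [CharP F 2] {a b a' b' : F} (hab : Aniso a b) (hab' : Aniso a' b') :
    ∃ s t : F, t ≠ 0 ∧ a' = 2 * s + a * t ∧ b' = s ^ 2 + a * s * t + b * t ^ 2 := by
  have ha := aniso_a_ne_zero hab
  have ha' := aniso_a_ne_zero hab'
  have hidx := index_range_wp ha'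
  have h1 : b' ∉ (wp a').range := by
    rintro ⟨s, hs⟩
    have hs' : s ^ 2 + a' * s = b' := hs
    have := hab' s 1 (by
      have e : s ^ 2 + a' * s * 1 + b' * 1 ^ 2 = (s ^ 2 + a' * s) + b' := by ring
      rw [e, hs']
      exact CharTwo.add_self_eq_zero _)
    exact one_ne_zero this.2
  have ht : a' / a ≠ 0 := div_ne_zero ha' ha
  have h2 : b * (a' / a) ^ 2 ∉ (wp a').range := by
    rintro ⟨s, hs⟩
    have hs' : s ^ 2 + a' * s = b * (a' / a) ^ 2 := hs
    have := hab (s / (a' / a)) 1 (by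
      have e : (s / (a' / a)) ^ 2 + a * (s / (a' / a)) * 1 + b * 1 ^ 2
          = ((s ^ 2 + a' * s) + b * (a' / a) ^ 2) / (a' / a) ^ 2 := by
        field_simp
      rw [e, hs', CharTwo.add_self_eq_zero, zero_div])
    exact one_ne_zero this.2
  have h3 : b' + b * (a' / a) ^ 2 ∈ (wp a').range :=
    (AddSubgroup.add_mem_iff_of_index_two hidx).2 ⟨fun h => absurd h h1, fun h => absurd h h2⟩
  obtain ⟨s, hs⟩ := h3
  have hs' : s ^ 2 + a' * s = b' + b * (a' / a) ^ 2 := hs
  refine ⟨s, a' / a, ht, ?_, ?_⟩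
  · have : (2 : F) = 0 := CharTwo.two_eq_zero
    rw [this, zero_mul, zero_add, mul_div_cancel₀ _ ha]
  · have e : s ^ 2 + a * s * (a' / a) + b * (a' / a) ^ 2 = (s ^ 2 + a' * s) + b * (a' / a) ^ 2 := by
      field_simp
    rw [e, hs', add_assoc, CharTwo.add_self_eq_zero, add_zero]

theorem exists_st {a b a' b' : F} (hab : Aniso a b) (hab' : Aniso a' b') :
    ∃ s t : F, t ≠ 0 ∧ a' = 2 * s + a * t ∧ b' = s ^ 2 + a * s * t + b * t ^ 2 := by
  by_cases h2 : (2 : F) = 0
  · have : CharP F 2 := CharTwo.of_one_ne_zero_of_two_eq_zero one_ne_zero h2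
    exact exists_st_two hab hab'
  · exact exists_st_odd h2 hab hab'

variable (m : ℕ)

/-- The change of basis matrix. -/
def stMat (s t : F) : Matrix ((Fin m ⊕ Fin m) ⊕ Fin 2) ((Fin m ⊕ Fin m) ⊕ Fin 2) F :=
  Matrix.fromBlocks 1 0 0 !![1, s; 0, t]

theorem det_stMat (s t : F) : (stMat m s t).det = t := by
  rw [stMat, Matrix.det_fromBlocks_zero₂₁, Matrix.det_one, Matrix.det_fin_two_of]
  ring

theorem Q_stMat {a b a' b' s t : F} (h1 : a' = 2 * s + a * t)
    (h2 : b' = s ^ 2 + a * s * t + b * t ^ 2) (v : (Fin m ⊕ Fin m) ⊕ Fin 2 → F) :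
    quadFormMinus m F a b (stMat m s t *ᵥ v) = quadFormMinus m F a' b' v := by
  unfold quadFormMinus
  rw [stMat, Matrix.fromBlocks_mulVec]
  simp only [Sum.elim_inl, Sum.elim_inr, Matrix.zero_mulVec, zero_add, add_zero, Matrix.one_mulVec,
    Function.comp]
  simp only [Matrix.mulVec, dotProduct, Fin.sum_univ_two, Matrix.of_apply, Matrix.cons_val_zero,
    Matrix.cons_val_one, Function.comp, Matrix.cons_val', Matrix.cons_val_fin_one]
  rw [h1, h2]
  ring

theorem exists_isometry_minus {a b a' b' : F} (hab : Aniso a b) (hab' : Aniso a' b') :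
    ∃ g : GL ((Fin m ⊕ Fin m) ⊕ Fin 2) F, ∀ v,
      quadFormMinus m F a b ((g : Matrix _ _ F) *ᵥ v) = quadFormMinus m F a' b' v := by
  obtain ⟨s, t, ht, h1, h2⟩ := exists_st hab hab'
  exact ⟨Matrix.GeneralLinearGroup.mkOfDetNeZero (stMat m s t) (by rw [det_stMat]; exact ht),
    Q_stMat m h1 h2⟩

theorem aniso_map {a b : F} (hab : Aniso a b) (σ : F ≃+* F) : Aniso (σ a) (σ b) := by
  intro z₁ z₂ h
  have h1 := hab (σ.symm z₁) (σ.symm z₂) (by
    apply σ.injective
    simp only [map_add, map_mul, map_pow, RingEquiv.apply_symm_apply, map_zero]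
    exact h)
  constructor
  · have := congrArg σ h1.1
    simpa using this
  · have := congrArg σ h1.2
    simpa using this

theorem map_quadFormMinus (a b : F) (σ : F ≃+* F) (v : (Fin m ⊕ Fin m) ⊕ Fin 2 → F) :
    quadFormMinus m F (σ a) (σ b) (fun i => σ (v i)) = σ (quadFormMinus m F a b v) := by
  unfold quadFormMinus
  simp only [map_add, map_mul, map_pow, map_sum]

theorem prO_surjective_minus {a b : F} (hab : Aniso a b) :
    Function.Surjective (prO (quadFormMinus m F a b)) := by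
  intro σ
  obtain ⟨g, hg⟩ := exists_isometry_minus m hab (aniso_map hab σ)
  refine ⟨⟨⟨g, σ⟩, 1, fun v => ?_⟩, rfl⟩
  rw [Units.val_one, one_mul]
  exact (hg _).trans (map_quadFormMinus m a b σ v)

/-! ### characteristic two -/

section Two

variable {ι : Type} [Fintype ι] [DecidableEq ι] (Q : QuadraticForm F (ι → F)) [CharP F 2]

/-- The isometries in the conformal group. -/
noncomputable abbrev OO' : Subgroup ↥(GO Q) := (incO Q).range

theorem sup_eq_top_two (hx : ∃ x, Q x = 1) : OO' Q ⊔ ZZ Q = ⊤ := by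
  rw [eq_top_iff]
  intro g _
  obtain ⟨d, hd⟩ := Cfsg.Agent.Lib.Helper49CharTwoA.exists_sqrt ((mu Q hx g : Fˣ) : F)
  have hd0 : d ≠ 0 := by
    rintro rfl
    rw [mul_zero] at hd
    exact (mu Q hx g).ne_zero hd.symm
  have hd' : Units.mk0 d hd0 * Units.mk0 d hd0 = mu Q hx g := Units.ext hd
  have h1 : g = (g * (scal Q (Units.mk0 d hd0))⁻¹) * scal Q (Units.mk0 d hd0) := by
    rw [inv_mul_cancel_right]
  rw [h1]
  apply Subgroup.mul_mem_sup _ (scal_mem Q _)
  obtain ⟨y, hy⟩ := exists_incO Q hx (g := g * (scal Q (Units.mk0 d hd0))⁻¹) (by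
    rw [map_mul, map_inv, mu_scal, hd', mul_inv_cancel])
  exact ⟨y, hy⟩

theorem K0_inf_OO' (hx : ∃ x, Q x = 1) : (Om' Q ⊔ ZZ Q) ⊓ OO' Q = Om' Q := by
  apply le_antisymm
  · rintro x ⟨hx1, ⟨y, hy⟩⟩
    obtain ⟨w, hw, c, rfl⟩ := mem_sup_ZZ' Q _ hx1
    have h1 : mu Q hx (w * scal Q c) = 1 := by rw [← hy, mu_incO]
    have hw2 := Om'_le_SO' Q hw
    rw [map_mul, ((mem_SO'_iff Q hx 0 _).1 hw2).1, one_mul, mu_scal] at h1
    have h2 : (c : F) * c = 1 := by rw [← Units.val_mul, h1, Units.val_one]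
    have h3 : c = 1 := by
      rcases mul_self_eq_one_iff.1 h2 with h | h
      · exact Units.ext h
      · apply Units.ext
        rw [h, CharTwo.neg_eq, Units.val_one]
    rw [h3, scal_one, mul_one]
    exact hw
  · refine le_inf le_sup_left ?_
    rw [Om'_eq]
    rintro _ ⟨y, -, rfl⟩
    exact ⟨y, rfl⟩

theorem index_K0_two (hQ : (QuadraticMap.polarBilin Q).Nondegenerate) (hx : ∃ x, Q x = 1)
    (hcard : 5 ≤ Fintype.card ι) : (Om' Q ⊔ ZZ Q).index = 2 := by
  have h1 : (⊤ : Subgroup ↥(GO Q)) = (Om' Q ⊔ ZZ Q) ⊔ OO' Q := by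
    rw [eq_comm, eq_top_iff, ← sup_eq_top_two Q hx]
    exact sup_le le_sup_right (le_sup_right.trans le_sup_left)
  rw [← Subgroup.relIndex_top_right, h1, Subgroup.relIndex_sup_left, ← Subgroup.inf_relIndex_right,
    K0_inf_OO' Q hx, Om'_eq, show OO' Q = (⊤ : Subgroup _).map (incO Q) from MonoidHom.range_eq_map _,
    Subgroup.relIndex_map_map_of_injective _ _ (incO_injective Q), Subgroup.relIndex_top_right,
    index_Omega_two Q hQ (Or.inr (by omega)) (by omega)]

end Two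

end Cfsg.Agent.Lib.Helper18GamD
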