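import Mathlib

set_option autoImplicit false

namespace Cfsg.Agent.Lib.Helper50H90

open Matrix

variable {F : Type*} [Field F] {n : ℕ}

local notation "Mn" => Matrix (Fin n) (Fin n) F

/-- partial norms `g σ(g) ⋯ σ^{k-1}(g)` of a matrix -/
def NkM (σ : F ≃+* F) (g : Mn) : ℕ → Mn
  | 0 => 1
  | k + 1 => g * (NkM σ g k).map σ

/-- from a spanning set of `F^n` extract an invertible matrix of columns -/
theorem exists_invertible_of_span (s : Set (Fin n → F)) (hs : ⊤ ≤ Submodule.span F s) :
    ∃ (M M' : Mn), M * M' = 1 ∧ M' * M = 1 ∧ ∀ j, (fun a => M a j) ∈ s := by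
  classical
  let B0 := Module.Basis.ofSpan hs
  have hfin : Finite ↑((linearIndepOn_empty F id).extend (Set.empty_subset s)) :=
    Module.Finite.finite_basis B0
  have : Fintype ↑((linearIndepOn_empty F id).extend (Set.empty_subset s)) := Fintype.ofFinite _
  have hcard : Fintype.card ↑((linearIndepOn_empty F id).extend (Set.empty_subset s))
      = Fintype.card (Fin n) := by
    rw [← Module.finrank_eq_card_basis B0, Module.finrank_fin_fun, Fintype.card_fin]
  let e := Fintype.equivOfCardEq hcard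
  let B1 := B0.reindex e
  let E := Pi.basisFun F (Fin n)
  refine ⟨E.toMatrix B1, B1.toMatrix E, ?_, ?_, ?_⟩
  · exact Module.Basis.toMatrix_mul_toMatrix_flip E B1
  · exact Module.Basis.toMatrix_mul_toMatrix_flip B1 E
  · intro j
    have h1 : (fun a => E.toMatrix B1 a j) = B1 j := by
      funext a
      rw [Module.Basis.toMatrix_apply]
      simp [E]
    rw [h1]
    apply Module.Basis.ofSpan_subset hs
    exact ⟨e.symm j, by simp [B1, B0]⟩

theorem pow_succ_apply (σ : F ≃+* F) (i : ℕ) (x : F) : (σ ^ (i + 1)) x = σ ((σ ^ i) x) := by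
  rw [pow_succ']
  rfl

/-- **Hilbert 90 for `GL_n`** and a cyclic group of field automorphisms. -/
theorem hilbert90_matrix (σ : F ≃+* F) (r : ℕ) (hr : orderOf σ = r) (hr0 : 0 < r) (g : Mn)
    (hN : NkM σ g r = 1) :
    ∃ (M M' : Mn), M * M' = 1 ∧ M' * M = 1 ∧ g * M.map σ = M := by
  set A := NkM σ g with hA
  let b : (Fin n → F) → (Fin n → F) := fun v =>
    ∑ i ∈ Finset.range r, A i *ᵥ (fun a => (σ ^ i) (v a))
  have hσr : σ ^ r = 1 := by rw [← hr]; exact pow_orderOf_eq_one σ
  have hfix : ∀ v, g *ᵥ (fun a => σ (b v a)) = b v := by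
    intro v
    have h1 : (fun a => σ (b v a)) = ∑ i ∈ Finset.range r,
        (A i).map σ *ᵥ (fun a => (σ ^ (i + 1)) (v a)) := by
      funext a
      simp only [b, Finset.sum_apply, map_sum]
      apply Finset.sum_congr rfl
      intro i _
      have := RingHom.map_mulVec (σ : F →+* F) (A i) (fun a => (σ ^ i) (v a)) a
      simp only [RingHom.coe_coe] at this
      rw [this]
      congr 1
      funext a'
      exact (pow_succ_apply σ i (v a')).symm
    rw [h1, Matrix.mulVec_sum]
    have h2 : ∀ i ∈ Finset.range r, g *ᵥ ((A i).map σ *ᵥ (fun a => (σ ^ (i + 1)) (v a)))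
        = A (i + 1) *ᵥ (fun a => (σ ^ (i + 1)) (v a)) := by
      intro i _
      rw [Matrix.mulVec_mulVec]
      rfl
    rw [Finset.sum_congr rfl h2]
    have h3 := Finset.sum_range_succ (fun i => A i *ᵥ (fun a => (σ ^ i) (v a))) r
    have h4 := Finset.sum_range_succ' (fun i => A i *ᵥ (fun a => (σ ^ i) (v a))) r
    rw [h3] at h4
    have h5 : A r *ᵥ (fun a => (σ ^ r) (v a)) = A 0 *ᵥ (fun a => (σ ^ 0) (v a)) := by
      rw [hN, hσr, pow_zero]
      rfl
    rw [h5] at h4
    exact (add_right_cancel h4).symm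
  have hspan : ⊤ ≤ Submodule.span F (Set.range b) := by
    by_contra hcon
    obtain ⟨u, hu0, hu⟩ := (Submodule.span F (Set.range b)).exists_le_ker_of_lt_top
      (lt_top_iff_ne_top.2 (fun h => hcon (h ▸ le_rfl)))
    apply hu0
    apply LinearMap.ext
    intro v
    have hz : ∀ l : F, ∑ i : Fin r, u (A i *ᵥ (fun a => (σ ^ (i : ℕ)) (v a))) • (σ ^ (i : ℕ)) l = 0 := by
      intro l
      have h1 : u (b (l • v)) = 0 := hu (Submodule.subset_span ⟨_, rfl⟩)
      simp only [b, map_sum] at h1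
      rw [Finset.sum_range] at h1
      rw [← h1]
      apply Finset.sum_congr rfl
      intro i _
      have h2 : (fun a => (σ ^ (i : ℕ)) ((l • v) a)) = (σ ^ (i : ℕ)) l • (fun a => (σ ^ (i : ℕ)) (v a)) := by
        funext a
        simp
      rw [h2, Matrix.mulVec_smul, map_smul, smul_eq_mul, smul_eq_mul, mul_comm]
    have hinj : Function.Injective (fun i : Fin r => (((σ ^ (i : ℕ) : F ≃+* F) : F →+* F) : F →* F)) := by
      intro i j hij
      have h1 : σ ^ (i : ℕ) = σ ^ (j : ℕ) := by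
        ext x
        exact congrFun (congrArg DFunLike.coe hij) x
      have h2 := pow_injOn_Iio_orderOf (x := σ) (by rw [hr]; exact i.2) (by rw [hr]; exact j.2) h1
      exact Fin.ext h2
    have hli := (linearIndependent_monoidHom F F).comp _ hinj
    rw [Fintype.linearIndependent_iff] at hli
    have h0 := hli (fun i => u (A i *ᵥ (fun a => (σ ^ (i : ℕ)) (v a)))) (by
      funext l
      have := hz l
      simpa using this) ⟨0, hr0⟩
    simpa [hA, NkM] using h0
  obtain ⟨M, M', h1, h2, h3⟩ := exists_invertible_of_span _ hspan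
  refine ⟨M, M', h1, h2, ?_⟩
  ext a j
  obtain ⟨v, hv⟩ := h3 j
  have := congrFun (hfix v) a
  rw [hv] at this
  rw [Matrix.mul_apply]
  exact this

/-- partial norms of a scalar -/
def Nk (σ : F ≃+* F) (z : F) : ℕ → F
  | 0 => 1
  | k + 1 => z * σ (Nk σ z k)

theorem Nk_mul (σ : F ≃+* F) (z w : F) (k : ℕ) : Nk σ (z * w) k = Nk σ z k * Nk σ w k := by
  induction k with
  | zero => simp [Nk]
  | succ k ih => simp only [Nk, ih, map_mul]; ring

theorem Nk_one (σ : F ≃+* F) (k : ℕ) : Nk σ 1 k = 1 := by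
  induction k with
  | zero => simp [Nk]
  | succ k ih => simp only [Nk, ih, map_one, mul_one]

theorem Nk_ne_zero (σ : F ≃+* F) {z : F} (hz : z ≠ 0) (k : ℕ) : Nk σ z k ≠ 0 := by
  induction k with
  | zero => simp [Nk]
  | succ k ih =>
    simp only [Nk]
    exact mul_ne_zero hz ((map_ne_zero σ).2 ih)

theorem Nk_succ' (σ : F ≃+* F) (z : F) (k : ℕ) : Nk σ z (k + 1) = Nk σ z k * (σ ^ k) z := by
  induction k with
  | zero => simp [Nk]
  | succ k ih =>
    calc Nk σ z (k + 1 + 1) = z * σ (Nk σ z (k + 1)) := rfl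
      _ = z * σ (Nk σ z k * (σ ^ k) z) := by rw [ih]
      _ = (z * σ (Nk σ z k)) * (σ ^ (k + 1)) z := by rw [map_mul, ← pow_succ_apply, mul_assoc]
      _ = Nk σ z (k + 1) * (σ ^ (k + 1)) z := rfl

theorem NkM_succ' (σ : F ≃+* F) (g : Mn) (k : ℕ) :
    NkM σ g (k + 1) = NkM σ g k * g.map (σ ^ k : F ≃+* F) := by
  induction k with
  | zero =>
    simp only [NkM, pow_zero, one_mul]
    have h1 : (1 : Mn).map σ = 1 := by
      have := Matrix.map_one (σ : F →+* F) (map_zero _) (map_one _) (n := Fin n)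
      exact this
    rw [h1, mul_one]
    ext a b
    rfl
  | succ k ih =>
    have h2 : (NkM σ g k * g.map (σ ^ k : F ≃+* F)).map σ
        = (NkM σ g k).map σ * g.map (σ ^ (k + 1) : F ≃+* F) := by
      have := Matrix.map_mul (f := (σ : F →+* F)) (L := NkM σ g k) (M := g.map (σ ^ k : F ≃+* F))
      simp only [RingHom.coe_coe] at this
      rw [this]
      congr 1
      ext a b
      exact (pow_succ_apply σ k (g a b)).symm
    calc NkM σ g (k + 1 + 1) = g * (NkM σ g (k + 1)).map σ := rfl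
      _ = g * (NkM σ g k * g.map (σ ^ k : F ≃+* F)).map σ := by rw [ih]
      _ = (g * (NkM σ g k).map σ) * g.map (σ ^ (k + 1) : F ≃+* F) := by rw [h2, mul_assoc]
      _ = NkM σ g (k + 1) * g.map (σ ^ (k + 1) : F ≃+* F) := rfl

theorem NkM_smul (σ : F ≃+* F) (c : F) (g : Mn) (k : ℕ) :
    NkM σ (c • g) k = Nk σ c k • NkM σ g k := by
  induction k with
  | zero => simp [NkM, Nk]
  | succ k ih =>
    simp only [NkM, Nk, ih]
    have : (Nk σ c k • NkM σ g k).map σ = σ (Nk σ c k) • (NkM σ g k).map σ := by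
      ext a b
      simp
    rw [this, smul_mul_assoc, mul_smul_comm, smul_smul]

/-- Hilbert 90 for scalars -/
theorem hilbert90_scalar (σ : F ≃+* F) (r : ℕ) (hr : orderOf σ = r) (hr0 : 0 < r) (z : F)
    (hN : Nk σ z r = 1) : ∃ μ : F, μ ≠ 0 ∧ z * σ μ = μ := by
  have h1 : NkM σ (z • (1 : Matrix (Fin 1) (Fin 1) F)) r = 1 := by
    rw [NkM_smul, hN, one_smul]
    clear hN hr hr0
    induction r with
    | zero => rfl
    | succ k ih =>
      simp only [NkM, ih, one_mul]
      exact Matrix.map_one (σ : F →+* F) (map_zero _) (map_one _)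
  obtain ⟨M, M', e1, e2, e3⟩ := hilbert90_matrix σ r hr hr0 _ h1
  refine ⟨M 0 0, ?_, ?_⟩
  · intro h0
    have := congrFun (congrFun e1 0) 0
    rw [Matrix.mul_apply] at this
    simp [h0] at this
  · have := congrFun (congrFun e3 0) 0
    rw [Matrix.mul_apply] at this
    simpa using this

theorem Nk_fixed (σ : F ≃+* F) (r : ℕ) (hr : σ ^ r = 1) {z : F} (hz : z ≠ 0) :
    σ (Nk σ z r) = Nk σ z r := by
  have h1 : z * σ (Nk σ z r) = Nk σ z r * (σ ^ r) z := Nk_succ' σ z r
  rw [hr] at h1
  have h2 : z * σ (Nk σ z r) = z * Nk σ z r := by rw [h1, mul_comm]; rfl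
  exact mul_left_cancel₀ hz h2

/-- surjectivity of the norm of a finite field onto the fixed field -/
theorem norm_surj [Finite F] (σ : F ≃+* F) (r : ℕ) (hr : orderOf σ = r) (hr0 : 0 < r) (z : F)
    (hz : z ≠ 0) (hfix : σ z = z) : ∃ l : F, l ≠ 0 ∧ Nk σ l r = z := by
  have hσr : σ ^ r = 1 := by rw [← hr]; exact pow_orderOf_eq_one σ
  let N : Fˣ →* Fˣ :=
    { toFun := fun l => Units.mk0 (Nk σ l r) (Nk_ne_zero σ l.ne_zero r)
      map_one' := by ext; simp [Nk_one]
      map_mul' := fun a b => by ext; simp [Nk_mul] }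
  let D : Fˣ →* Fˣ :=
    { toFun := fun l => l / Units.map (σ : F →* F) l
      map_one' := by simp
      map_mul' := fun a b => by rw [map_mul, mul_div_mul_comm] }
  have h1 : D.range = N.ker := by
    ext x
    rw [MonoidHom.mem_ker]
    constructor
    · rintro ⟨l, rfl⟩
      ext
      show Nk σ ((l / Units.map (σ : F →* F) l : Fˣ) : F) r = 1
      have e1 : ((l / Units.map (σ : F →* F) l : Fˣ) : F) = (l : F) * (σ (l : F))⁻¹ := by
        rw [Units.val_div_eq_div_val, div_eq_mul_inv]; rfl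
      have e2 : ∀ k, Nk σ ((l : F) * (σ (l : F))⁻¹) k = (l : F) * ((σ ^ k) (l : F))⁻¹ := by
        intro k
        induction k with
        | zero => simp [Nk]
        | succ k ih =>
          simp only [Nk, ih, map_mul, map_inv₀, ← pow_succ_apply]
          have := l.ne_zero
          have h3 : σ (l : F) ≠ 0 := (map_ne_zero σ).2 this
          field_simp
      rw [e1, e2, hσr]
      exact mul_inv_cancel₀ l.ne_zero
    · intro hx
      have hx' : Nk σ (x : F) r = 1 := congrArg Units.val hx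
      obtain ⟨μ, hμ, e⟩ := hilbert90_scalar σ r hr hr0 _ hx'
      refine ⟨Units.mk0 μ hμ, ?_⟩
      ext
      show ((Units.mk0 μ hμ / Units.map (σ : F →* F) (Units.mk0 μ hμ) : Fˣ) : F) = x
      rw [Units.val_div_eq_div_val]
      show μ / σ μ = x
      have h3 : σ μ ≠ 0 := (map_ne_zero σ).2 hμ
      field_simp
      linear_combination (-1 : F) * e
  have h2 : N.range ≤ D.ker := by
    rintro _ ⟨l, rfl⟩
    rw [MonoidHom.mem_ker]
    show N l / Units.map (σ : F →* F) (N l) = 1
    rw [div_eq_one]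
    ext
    exact (Nk_fixed σ r hσr l.ne_zero).symm
  have h3 : N.range = D.ker := by
    apply Subgroup.eq_of_le_of_card_ge h2
    have e1 := Subgroup.card_mul_index N.ker
    have e2 := Subgroup.card_mul_index D.ker
    rw [Subgroup.index_ker] at e1 e2
    rw [← h1] at e1
    have e3 : Nat.card D.range * Nat.card N.range = Nat.card D.range * Nat.card D.ker := by
      rw [e1, mul_comm, e2]
    exact (Nat.eq_of_mul_eq_mul_left Nat.card_pos e3).ge
  have h4 : Units.mk0 z hz ∈ D.ker := by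
    rw [MonoidHom.mem_ker]
    show Units.mk0 z hz / Units.map (σ : F →* F) (Units.mk0 z hz) = 1
    rw [div_eq_one]
    ext
    exact hfix.symm
  rw [← h3] at h4
  obtain ⟨l, hl⟩ := h4
  exact ⟨l, l.ne_zero, congrArg Units.val hl⟩

/-- Hilbert 90 for `PGL_n` over a finite field -/
theorem hilbert90_PGL [Finite F] (σ : F ≃+* F) (r : ℕ) (hr : orderOf σ = r) (hr0 : 0 < r)
    (g g' : Mn) (hg : g * g' = 1) (hn : 0 < n) (z : F) (hN : NkM σ g r = z • 1) :
    ∃ (c : F) (M M' : Mn), c ≠ 0 ∧ M * M' = 1 ∧ M' * M = 1 ∧ (c • g) * M.map σ = M := by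
  have hσr : σ ^ r = 1 := by rw [← hr]; exact pow_orderOf_eq_one σ
  have : Nonempty (Fin n) := ⟨⟨0, hn⟩⟩
  have h1 : g * (NkM σ g r).map σ = NkM σ g r * g.map (σ ^ r : F ≃+* F) := NkM_succ' σ g r
  have h2 : g.map (σ ^ r : F ≃+* F) = g := by
    rw [hσr]; ext a b; rfl
  have h3 : (z • (1 : Mn)).map σ = σ z • 1 := by
    ext a b
    by_cases hab : a = b
    · subst hab; simp
    · simp [hab]
  rw [hN, h2, h3, mul_smul_comm, smul_mul_assoc, mul_one, one_mul] at h1
  have hfix : σ z = z := by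
    have h4 := congrArg (· * g') h1
    simp only [smul_mul_assoc, hg] at h4
    have h5 := congrFun (congrFun h4 ⟨0, hn⟩) ⟨0, hn⟩
    simpa using h5
  have hz : z ≠ 0 := by
    rintro rfl
    rw [zero_smul] at hN
    -- the partial norms are invertible
    have hinv : ∀ k, ∃ X, NkM σ g k * X = 1 := by
      intro k
      induction k with
      | zero => exact ⟨1, by simp [NkM]⟩
      | succ k ih =>
        obtain ⟨X, hX⟩ := ih
        refine ⟨X.map σ * g', ?_⟩
        simp only [NkM]
        have e := Matrix.map_mul (f := (σ : F →+* F)) (L := NkM σ g k) (M := X)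
        simp only [RingHom.coe_coe] at e
        have e1 : (1 : Mn).map σ = 1 := Matrix.map_one (σ : F →+* F) (map_zero _) (map_one _)
        calc g * (NkM σ g k).map σ * (X.map σ * g') = g * ((NkM σ g k).map σ * X.map σ) * g' := by
              simp only [mul_assoc]
          _ = 1 := by rw [← e, hX, e1, mul_one, hg]
    obtain ⟨X, hX⟩ := hinv r
    rw [hN, zero_mul] at hX
    exact zero_ne_one hX
  obtain ⟨l, hl0, hl⟩ := norm_surj σ r hr hr0 z hz hfix
  have h5 : NkM σ (l⁻¹ • g) r = 1 := by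
    rw [NkM_smul, hN, smul_smul]
    have : Nk σ l⁻¹ r * z = 1 := by
      rw [← hl, ← Nk_mul, inv_mul_cancel₀ hl0, Nk_one]
    rw [this, one_smul]
  obtain ⟨M, M', e1, e2, e3⟩ := hilbert90_matrix σ r hr hr0 _ h5
  exact ⟨l⁻¹, M, M', inv_ne_zero hl0, e1, e2, e3⟩

end Cfsg.Agent.Lib.Helper50H90
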