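import Mathlib
import Cfsg.Prelude

set_option autoImplicit false

namespace Cfsg.Agent.Lib.Helper50Split

variable {X : Type*} [Group X]

theorem isConjUnder_conj (H : Subgroup X) [H.Normal] (α x y : X) (h : Cfsg.IsConjUnder H x y) :
    Cfsg.IsConjUnder H (α * x * α⁻¹) (α * y * α⁻¹) := by
  obtain ⟨k, hk, rfl⟩ := h
  exact ⟨α * k * α⁻¹, Subgroup.Normal.conj_mem inferInstance k hk α, by group⟩

theorem isConjUnder_conj_iff (H : Subgroup X) [H.Normal] (α x y : X) :
    Cfsg.IsConjUnder H x y ↔ Cfsg.IsConjUnder H (α * x * α⁻¹) (α * y * α⁻¹) := by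
  refine ⟨isConjUnder_conj H α x y, fun h => ?_⟩
  have := isConjUnder_conj H α⁻¹ _ _ h
  have e1 : α⁻¹ * (α * x * α⁻¹) * α⁻¹⁻¹ = x := by group
  have e2 : α⁻¹ * (α * y * α⁻¹) * α⁻¹⁻¹ = y := by group
  rwa [e1, e2] at this

theorem isConjUnder_refl (H : Subgroup X) (x : X) : Cfsg.IsConjUnder H x x :=
  ⟨1, one_mem _, by simp⟩

theorem isConjUnder_symm (H : Subgroup X) {x y : X} (h : Cfsg.IsConjUnder H x y) :
    Cfsg.IsConjUnder H y x := by
  obtain ⟨k, hk, rfl⟩ := h
  exact ⟨k⁻¹, inv_mem hk, by group⟩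

theorem isConjUnder_trans (H : Subgroup X) {x y z : X} (h : Cfsg.IsConjUnder H x y)
    (h' : Cfsg.IsConjUnder H y z) : Cfsg.IsConjUnder H x z := by
  obtain ⟨k, hk, rfl⟩ := h
  obtain ⟨k', hk', rfl⟩ := h'
  exact ⟨k' * k, mul_mem hk' hk, by group⟩

theorem splitClassCount_conj (H K : Subgroup X) [H.Normal] [K.Normal] (α x : X) :
    Cfsg.splitClassCount H K (α * x * α⁻¹) = Cfsg.splitClassCount H K x := by
  unfold Cfsg.splitClassCount
  symm
  apply Nat.card_congr
  refine Quot.congr ((MulAut.conj α).toEquiv.subtypeEquiv (fun y => ?_)) ?_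
  · exact isConjUnder_conj_iff H α x y
  · intro a b
    exact isConjUnder_conj_iff K α a.1 b.1

/-- the number of `K`-classes in the `H`-class of `x` -/
theorem splitClassCount_eq (H K : Subgroup X) [K.Normal] (hKH : K ≤ H) (x : X) :
    Cfsg.splitClassCount H K x = (K ⊔ (H ⊓ Subgroup.centralizer {x})).relIndex H := by
  unfold Cfsg.splitClassCount Subgroup.relIndex Subgroup.index
  set L := K ⊔ (H ⊓ Subgroup.centralizer {x}) with hL
  symm
  apply Nat.card_congr
  let Φ : ↥H → {y : X // Cfsg.IsConjUnder H x y} := fun h => ⟨h * x * h⁻¹, h, h.2, rfl⟩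
  have hΦ : Function.Surjective Φ := by
    rintro ⟨y, h, hh, rfl⟩
    exact ⟨⟨h, hh⟩, rfl⟩
  have key : ∀ a b : ↥H, (a⁻¹ * b ∈ L.subgroupOf H) ↔ Cfsg.IsConjUnder K (Φ a).1 (Φ b).1 := by
    intro a b
    rw [Subgroup.mem_subgroupOf, hL, Subgroup.mem_sup_of_normal_left]
    constructor
    · rintro ⟨k, hk, c, ⟨hc1, hc2⟩, e⟩
      have hc : c * x = x * c := (Subgroup.mem_centralizer_singleton_iff.1 hc2)
      refine ⟨(a : X) * k * (a : X)⁻¹, Subgroup.Normal.conj_mem inferInstance k hk _, ?_⟩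
      have hb : (b : X) = a * (k * c) := by
        rw [e]; simp
      show (b : X) * x * (b : X)⁻¹ = _ * ((a : X) * x * (a : X)⁻¹) * _
      have hx : c * x * c⁻¹ = x := by rw [hc, mul_inv_cancel_right]
      calc (b : X) * x * (b : X)⁻¹ = a * k * (c * x * c⁻¹) * k⁻¹ * (a : X)⁻¹ := by rw [hb]; group
        _ = _ := by rw [hx]; group
    · rintro ⟨k, hk, e⟩
      have e' : (b : X) * x * (b : X)⁻¹ = k * ((a : X) * x * (a : X)⁻¹) * k⁻¹ := e
      refine ⟨(a : X)⁻¹ * k * (a : X), ?_, (a : X)⁻¹ * k⁻¹ * b, ⟨?_, ?_⟩, ?_⟩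
      · have := Subgroup.Normal.conj_mem (inferInstance : K.Normal) k hk (a : X)⁻¹
        rwa [inv_inv] at this
      · show _ ∈ H
        exact mul_mem (mul_mem (inv_mem a.2) (inv_mem (hKH hk))) b.2
      · show _ ∈ Subgroup.centralizer {x}
        rw [Subgroup.mem_centralizer_singleton_iff]
        have e2 : x = (a : X)⁻¹ * k⁻¹ * ((b : X) * x * (b : X)⁻¹) * k * a := by rw [e']; group
        calc (a : X)⁻¹ * k⁻¹ * b * x = ((a : X)⁻¹ * k⁻¹ * ((b : X) * x * (b : X)⁻¹) * k * a)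
              * ((a : X)⁻¹ * k⁻¹ * b) := by group
          _ = x * ((a : X)⁻¹ * k⁻¹ * b) := by rw [← e2]
      · simp only [Subgroup.coe_mul, Subgroup.coe_inv]; group
  have hequiv : Equivalence (fun y z : {y : X // Cfsg.IsConjUnder H x y} => Cfsg.IsConjUnder K y.1 z.1) :=
    ⟨fun y => isConjUnder_refl K y.1, fun h => isConjUnder_symm K h,
      fun h h' => isConjUnder_trans K h h'⟩
  refine Equiv.ofBijective (Quot.map Φ (fun a b hab => ?_)) ⟨?_, ?_⟩
  · exact (key a b).1 (QuotientGroup.leftRel_apply.1 hab)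
  · intro a b
    induction a using Quot.inductionOn with | _ a => ?_
    induction b using Quot.inductionOn with | _ b => ?_
    intro hab
    have h1 : Quot.mk _ (Φ a) = Quot.mk _ (Φ b) := hab
    have h2 := (hequiv.eqvGen_iff).1 (Quot.eqvGen_exact h1)
    exact Quot.sound (QuotientGroup.leftRel_apply.2 ((key a b).2 h2))
  · intro y
    induction y using Quot.inductionOn with | _ y => ?_
    obtain ⟨a, rfl⟩ := hΦ y
    exact ⟨Quot.mk _ a, rfl⟩

theorem centralizer_conj_equiv (N : Subgroup X) [N.Normal] (α x : X) :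
    Nonempty (↥(N ⊓ Subgroup.centralizer {x}) ≃* ↥(N ⊓ Subgroup.centralizer {α * x * α⁻¹})) := by
  have h : (N ⊓ Subgroup.centralizer {x}).map (MulAut.conj α).toMonoidHom
      = N ⊓ Subgroup.centralizer {α * x * α⁻¹} := by
    ext y
    simp only [Subgroup.mem_map, Subgroup.mem_inf, Subgroup.mem_centralizer_singleton_iff]
    constructor
    · rintro ⟨c, ⟨hc1, hc2⟩, rfl⟩
      refine ⟨Subgroup.Normal.conj_mem inferInstance c hc1 α, ?_⟩
      show α * c * α⁻¹ * (α * x * α⁻¹) = α * x * α⁻¹ * (α * c * α⁻¹)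
      calc α * c * α⁻¹ * (α * x * α⁻¹) = α * (c * x) * α⁻¹ := by group
        _ = α * (x * c) * α⁻¹ := by rw [hc2]
        _ = _ := by group
    · rintro ⟨hy1, hy2⟩
      refine ⟨α⁻¹ * y * α, ⟨?_, ?_⟩, ?_⟩
      · have := Subgroup.Normal.conj_mem (inferInstance : N.Normal) y hy1 α⁻¹
        rwa [inv_inv] at this
      · calc α⁻¹ * y * α * x = α⁻¹ * (y * (α * x * α⁻¹)) * α := by group
          _ = α⁻¹ * ((α * x * α⁻¹) * y) * α := by rw [hy2]
          _ = _ := by group
      · show α * (α⁻¹ * y * α) * α⁻¹ = y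
        group
  exact ⟨((N ⊓ Subgroup.centralizer {x}).equivMapOfInjective _ (MulAut.conj α).injective).trans
    (MulEquiv.subgroupCongr h)⟩

section cyclic

variable {A : Type*} [CommGroup A] [IsCyclic A] [Finite A]

theorem eq_ker_pow (E : Subgroup A) : E = (powMonoidHom (Nat.card E) : A →* A).ker := by
  apply Subgroup.eq_of_le_of_card_ge
  · intro a ha
    rw [MonoidHom.mem_ker, powMonoidHom_apply]
    have := pow_card_eq_one' (x := (⟨a, ha⟩ : E))
    exact congrArg Subtype.val this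
  · rw [IsCyclic.card_powMonoidHom_ker, Nat.gcd_eq_right (Subgroup.card_subgroup_dvd_card E)]

theorem eq_range_pow (E : Subgroup A) : E = (powMonoidHom E.index : A →* A).range := by
  symm
  have hm := Subgroup.card_mul_index E
  apply Subgroup.eq_of_le_of_card_ge
  · rintro _ ⟨a, rfl⟩
    have h1 : (powMonoidHom E.index : A →* A) a ∈ (powMonoidHom (Nat.card E) : A →* A).ker := by
      rw [MonoidHom.mem_ker, powMonoidHom_apply, powMonoidHom_apply, ← pow_mul, mul_comm,
        hm, pow_card_eq_one']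
    rwa [← eq_ker_pow E] at h1
  · rw [IsCyclic.card_powMonoidHom_range, Nat.gcd_eq_right (Subgroup.index_dvd_card E)]
    have h0 : 0 < E.index := Nat.pos_of_ne_zero Subgroup.index_ne_zero_of_finite
    rw [← hm, Nat.mul_div_cancel _ h0]

omit [IsCyclic A] [Finite A] in
theorem range_pow_sup (a b : ℕ) : (powMonoidHom a : A →* A).range ⊔ (powMonoidHom b : A →* A).range
    = (powMonoidHom (Nat.gcd a b) : A →* A).range := by
  apply le_antisymm
  · apply sup_le
    · rintro _ ⟨x, rfl⟩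
      obtain ⟨c, hc⟩ := Nat.gcd_dvd_left a b
      refine ⟨x ^ c, ?_⟩
      rw [powMonoidHom_apply, powMonoidHom_apply, ← pow_mul, mul_comm, ← hc]
    · rintro _ ⟨x, rfl⟩
      obtain ⟨c, hc⟩ := Nat.gcd_dvd_right a b
      refine ⟨x ^ c, ?_⟩
      rw [powMonoidHom_apply, powMonoidHom_apply, ← pow_mul, mul_comm, ← hc]
  · rintro _ ⟨x, rfl⟩
    rw [powMonoidHom_apply, ← zpow_natCast, Nat.gcd_eq_gcd_ab, zpow_add]
    apply Subgroup.mul_mem_sup
    · refine ⟨x ^ (Nat.gcdA a b), ?_⟩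
      rw [powMonoidHom_apply, ← zpow_natCast, ← zpow_mul, mul_comm]
    · refine ⟨x ^ (Nat.gcdB a b), ?_⟩
      rw [powMonoidHom_apply, ← zpow_natCast, ← zpow_mul, mul_comm]

theorem index_range_pow_sup (n : ℕ) (E : Subgroup A) :
    ((powMonoidHom n : A →* A).range ⊔ E).index = Nat.gcd n E.index := by
  conv_lhs => rw [eq_range_pow E]
  rw [range_pow_sup, IsCyclic.index_powMonoidHom_range]
  apply Nat.gcd_eq_right
  exact (Nat.gcd_dvd_right _ _).trans (Subgroup.index_dvd_card E)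

end cyclic

end Cfsg.Agent.Lib.Helper50Split
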