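import Mathlib
import Cfsg.Agent.Lib.Helper18GamD
import Cfsg.Agent.Lib.Helper50Split
import Cfsg.Agent.Lib.Helper50H90

/-!
# Standard field automorphisms of `PΩ`: centralisers and class splitting (abstract framework)
-/

set_option autoImplicit false
set_option linter.unusedSectionVars false

namespace Cfsg.Agent.Lib.Helper18GamE

open Cfsg Matrix Module
open scoped MatrixGroups
open Cfsg.Agent.Lib.Helper49Orth
  Cfsg.Agent.Lib.Helper51OrthAut Cfsg.Agent.Lib.Helper51OrthKer Cfsg.Agent.Lib.Helper51OrthIdx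
  Cfsg.Agent.Lib.Helper51OrthIdx2 Cfsg.Agent.Lib.Helper51OrthIdx3
  Cfsg.Agent.Lib.Helper18GamA Cfsg.Agent.Lib.Helper18GamB Cfsg.Agent.Lib.Helper18GamC
  Cfsg.Agent.Lib.Helper50H90 Cfsg.Agent.Lib.Helper50Split

section QF

variable {F : Type*} [Field F] {ι : Type} [Fintype ι] [DecidableEq ι]

/-- A quadratic form vanishing on the standard basis, with polar form vanishing on pairs of basis
vectors, is zero. -/
theorem qf_eq_zero (Q : QuadraticForm F (ι → F)) (h1 : ∀ i, Q (Pi.single i 1) = 0)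
    (h2 : ∀ i k, QuadraticMap.polar ⇑Q (Pi.single i 1) (Pi.single k 1) = 0) (v : ι → F) :
    Q v = 0 := by
  have hB : QuadraticMap.polarBilin Q = 0 := by
    apply LinearMap.BilinForm.ext_basis (Pi.basisFun F ι)
    intro i k
    simp only [Pi.basisFun_apply, QuadraticMap.polarBilin_apply_apply]
    exact h2 i k
  have hadd : ∀ x y, Q (x + y) = Q x + Q y := by
    intro x y
    have := congrArg (fun B => B x y) hB
    simp only [QuadraticMap.polarBilin_apply_apply] at this
    have h3 : QuadraticMap.polar ⇑Q x y = 0 := this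
    unfold QuadraticMap.polar at h3
    linear_combination h3
  let φ : (ι → F) →+ F := ⟨⟨Q, map_zero Q⟩, hadd⟩
  have h4 : v = ∑ i, v i • (Pi.single i 1 : ι → F) := by
    funext k
    simp [Finset.sum_apply, Pi.single_apply]
  have h5 : φ v = 0 := by
    rw [h4, map_sum]
    apply Finset.sum_eq_zero
    intro i _
    change Q (v i • (Pi.single i 1 : ι → F)) = 0
    rw [QuadraticMap.map_smul, h1, smul_zero]
  exact h5

theorem qf_ext (Q Q' : QuadraticForm F (ι → F)) (h1 : ∀ i, Q (Pi.single i 1) = Q' (Pi.single i 1))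
    (h2 : ∀ i k, Q (Pi.single i 1 + Pi.single k 1) = Q' (Pi.single i 1 + Pi.single k 1))
    (v : ι → F) : Q v = Q' v := by
  have := qf_eq_zero (Q - Q') (fun i => by rw [_root_.sub_apply, h1, sub_self])
    (fun i k => by
      unfold QuadraticMap.polar
      simp only [_root_.sub_apply, h1, h2, sub_self]) v
  rw [_root_.sub_apply, sub_eq_zero] at this
  exact this

end QF

variable {F : Type*} [Field F] {F₀ : Type*} [Field F₀]
variable {ι : Type} [Fintype ι] [DecidableEq ι]
variable (Q : QuadraticForm F (ι → F)) (Q₀ : QuadraticForm F₀ (ι → F₀)) (j : F₀ →+* F)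

/-- `Q` is the extension of scalars of `Q₀`. -/
def Ext : Prop := ∀ v : ι → F₀, Q (fun i => j (v i)) = j (Q₀ v)

variable {Q Q₀ j}

theorem map_single (i : ι) : (fun k => j ((Pi.single i 1 : ι → F₀) k)) = (Pi.single i 1 : ι → F) := by
  funext k
  by_cases h : k = i
  · subst h; simp
  · simp [h]

theorem map_mulVec_j (M : Matrix ι ι F₀) (v : ι → F₀) :
    (M.map j) *ᵥ (fun i => j (v i)) = fun i => j ((M *ᵥ v) i) := by
  funext i
  exact (RingHom.map_mulVec j M v i).symm

theorem Ext.sim (hE : Ext Q Q₀ j) (M : Matrix ι ι F₀) (c : F₀) (h : ∀ v, Q₀ (M *ᵥ v) = c * Q₀ v)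
    (v : ι → F) : Q (M.map j *ᵥ v) = j c * Q v := by
  have key : ∀ w : ι → F₀, Q (M.map j *ᵥ (fun i => j (w i))) = j c * Q (fun i => j (w i)) := by
    intro w
    rw [map_mulVec_j, hE, hE, h, map_mul]
  have := qf_ext (Q.comp (Matrix.toLin' (M.map j))) (j c • Q)
    (fun i => by
      rw [QuadraticMap.comp_apply, Matrix.toLin'_apply, _root_.smul_apply, smul_eq_mul,
        ← map_single (j := j), key])
    (fun i k => by
      have e : (Pi.single i 1 + Pi.single k 1 : ι → F)
          = fun l => j ((Pi.single i 1 + Pi.single k 1 : ι → F₀) l) := by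
        rw [← map_single (j := j) i, ← map_single (j := j) k]
        funext l
        simp
      rw [QuadraticMap.comp_apply, Matrix.toLin'_apply, _root_.smul_apply, smul_eq_mul, e, key])
    v
  rw [QuadraticMap.comp_apply, Matrix.toLin'_apply, _root_.smul_apply, smul_eq_mul] at this
  exact this

/-- Extension of scalars on conformal groups. -/
def mapJ (hE : Ext Q Q₀ j) : ↥(GO Q₀) →* ↥(GO Q) where
  toFun g := ⟨Matrix.GeneralLinearGroup.map j (g : GL ι F₀), by
    obtain ⟨c, hc⟩ := g.2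
    exact ⟨Units.map (j : F₀ →* F) c, fun v => hE.sim _ _ hc v⟩⟩
  map_one' := Subtype.ext (map_one _)
  map_mul' a b := Subtype.ext (map_mul _ _ _)

theorem coe_mapJ (hE : Ext Q Q₀ j) (g : ↥(GO Q₀)) :
    (((mapJ hE g : ↥(GO Q)) : GL ι F) : Matrix ι ι F) = ((g : GL ι F₀) : Matrix ι ι F₀).map j := rfl

theorem mapJ_injective (hE : Ext Q Q₀ j) : Function.Injective (mapJ hE) := by
  intro a b h
  apply Subtype.ext
  apply Units.ext
  have := congrArg (fun g : ↥(GO Q) => ((g : GL ι F) : Matrix ι ι F)) h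
  simp only [coe_mapJ] at this
  exact Matrix.map_injective j.injective this

theorem mu_mapJ (hE : Ext Q Q₀ j) (hx : ∃ x, Q x = 1) (hx₀ : ∃ x, Q₀ x = 1) (g : ↥(GO Q₀)) :
    mu Q hx (mapJ hE g) = Units.map (j : F₀ →* F) (mu Q₀ hx₀ g) :=
  mu_eq Q hx _ _ (fun v => hE.sim _ _ (mu_spec Q₀ hx₀ g) v)

theorem det_mapJ (hE : Ext Q Q₀ j) (g : ↥(GO Q₀)) :
    Matrix.GeneralLinearGroup.det ((mapJ hE g : ↥(GO Q)) : GL ι F) =
      Units.map (j : F₀ →* F) (Matrix.GeneralLinearGroup.det (g : GL ι F₀)) :=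
  Matrix.GeneralLinearGroup.map_det j _

theorem delta_mapJ (hE : Ext Q Q₀ j) (hx : ∃ x, Q x = 1) (hx₀ : ∃ x, Q₀ x = 1) (m : ℕ)
    (g : ↥(GO Q₀)) :
    delta Q hx m (mapJ hE g) = Units.map (j : F₀ →* F) (delta Q₀ hx₀ m g) := by
  rw [delta_apply, delta_apply, mu_mapJ hE hx hx₀, det_mapJ, map_mul, map_pow, map_inv]

theorem mapJ_scal (hE : Ext Q Q₀ j) (c : F₀ˣ) :
    mapJ hE (scal Q₀ c) = scal Q (Units.map (j : F₀ →* F) c) := by
  apply Subtype.ext
  apply Units.ext
  rw [coe_mapJ, coe_scal, coe_scal]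
  ext a b
  by_cases hab : a = b
  · subst hab; simp
  · simp [hab]

theorem mapJ_mem_ZZ_iff [Nonempty ι] (hE : Ext Q Q₀ j) (g : ↥(GO Q₀)) :
    mapJ hE g ∈ ZZ Q ↔ g ∈ ZZ Q₀ := by
  constructor
  · intro h
    obtain ⟨c, hc⟩ := exists_scal Q h
    have e : ∀ a b, j (((g : GL ι F₀) : Matrix ι ι F₀) a b) = ((c : F) • (1 : Matrix ι ι F)) a b := by
      intro a b
      rw [← coe_scal Q, ← hc, coe_mapJ]
      rfl
    obtain ⟨i₀⟩ := (inferInstance : Nonempty ι)
    have h0 : ((g : GL ι F₀) : Matrix ι ι F₀) i₀ i₀ ≠ 0 := by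
      intro h0
      have := e i₀ i₀
      rw [h0, map_zero] at this
      simp only [Matrix.smul_apply, Matrix.one_apply_eq, smul_eq_mul, mul_one] at this
      exact c.ne_zero this.symm
    have hg : g = scal Q₀ (Units.mk0 _ h0) := by
      apply Subtype.ext
      apply Units.ext
      rw [coe_scal]
      ext a b
      apply j.injective
      rw [e]
      by_cases hab : a = b
      · subst hab
        have := e i₀ i₀
        simp only [Matrix.smul_apply, Matrix.one_apply_eq, smul_eq_mul, mul_one, Units.val_mk0] at this ⊢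
        exact this.symm
      · simp [hab]
    rw [hg]
    exact scal_mem Q₀ _
  · intro h
    obtain ⟨c, rfl⟩ := exists_scal Q₀ h
    rw [mapJ_scal]
    exact scal_mem Q _

end Cfsg.Agent.Lib.Helper18GamE
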