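import Mathlib
import Cfsg.Agent.Lib.Helper18GamE

/-!
# Standard field automorphisms of `PΩ`: centralisers and class splitting (abstract framework, II)
-/

set_option autoImplicit false
set_option linter.unusedSectionVars false

namespace Cfsg.Agent.Lib.Helper18GamF

open Cfsg Matrix Module
open scoped MatrixGroups
open Cfsg.Agent.Lib.Helper49Orth
  Cfsg.Agent.Lib.Helper51OrthAut Cfsg.Agent.Lib.Helper51OrthKer Cfsg.Agent.Lib.Helper51OrthIdx
  Cfsg.Agent.Lib.Helper51OrthIdx2 Cfsg.Agent.Lib.Helper51OrthIdx3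
  Cfsg.Agent.Lib.Helper18GamA Cfsg.Agent.Lib.Helper18GamB Cfsg.Agent.Lib.Helper18GamC
  Cfsg.Agent.Lib.Helper18GamE
  Cfsg.Agent.Lib.Helper50H90 Cfsg.Agent.Lib.Helper50Split

variable {F : Type*} [Field F] {ι : Type} [Fintype ι] [DecidableEq ι]

/-- The form commutes with the field automorphism. -/
def Comm (Q : (ι → F) → F) (σ : F ≃+* F) : Prop := ∀ v : ι → F, Q (fun i => σ (v i)) = σ (Q v)

section raw

variable {Q : (ι → F) → F} {σ : F ≃+* F}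

/-- The field automorphism as a semisimilarity. -/
def fS (hσ : Comm Q σ) : ↥(GamO Q) := ⟨SemidirectProduct.inr σ, 1, fun v => by
    rw [SemidirectProduct.left_inr, SemidirectProduct.right_inr, Units.val_one, Matrix.one_mulVec,
      Units.val_one, one_mul, hσ]⟩

/-- The standard field automorphism of `PΩ`. -/
noncomputable def fA (hσ : Comm Q σ) : MulAut (POmega F Q) := sAut Q (fS hσ)

theorem isField_iff (hσ : Comm Q σ) (φ : POmega F Q ≃* POmega F Q) :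
    IsFieldAutPOmegaOf Q σ φ ↔ φ = fA hσ := by
  unfold fA
  rw [← Helper18GamA.induced_iff]
  unfold IsFieldAutPOmegaOf IsInducedBySemilinearPOmega
  have e : ∀ M : Matrix ι ι F, (((fS hσ : ↥(GamO Q)) : GamL ι F).left : Matrix ι ι F) *
      M.map ((fS hσ : ↥(GamO Q)) : GamL ι F).right *
      (((((fS hσ : ↥(GamO Q)) : GamL ι F).left)⁻¹ : GL ι F) : Matrix ι ι F) = M.map σ := by
    intro M
    change ((1 : GL ι F) : Matrix ι ι F) * M.map σ * (((1 : GL ι F)⁻¹ : GL ι F) : Matrix ι ι F) = _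
    simp
  simp only [e]

theorem comm_pow (hσ : Comm Q σ) (k : ℕ) : Comm Q (σ ^ k) := by
  induction k with
  | zero => intro v; rfl
  | succ k ih =>
    intro v
    rw [pow_succ']
    exact (hσ _).trans (congrArg σ (ih v))

theorem fS_pow (hσ : Comm Q σ) (k : ℕ) : fS hσ ^ k = fS (comm_pow hσ k) := by
  apply Subtype.ext
  rw [Subgroup.coe_pow]
  exact (map_pow SemidirectProduct.inr σ k).symm

theorem fA_pow (hσ : Comm Q σ) (k : ℕ) : fA hσ ^ k = fA (comm_pow hσ k) := by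
  unfold fA
  rw [← map_pow, fS_pow]

end raw

variable [Fintype F] {Q : QuadraticForm F (ι → F)} {σ : F ≃+* F}

theorem fA_eq_one_iff (hQ : (QuadraticMap.polarBilin Q).Nondegenerate) (hn : 5 ≤ Fintype.card ι)
    (hσ : Comm ⇑Q σ) : fA hσ = 1 ↔ σ = 1 := by
  constructor
  · intro h
    exact right_eq_one Q hQ hn (fS hσ) h
  · rintro rfl
    have : fS hσ = 1 := by
      apply Subtype.ext
      exact map_one _
    unfold fA
    rw [this, map_one]

theorem orderOf_fA (hQ : (QuadraticMap.polarBilin Q).Nondegenerate) (hn : 5 ≤ Fintype.card ι)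
    (hσ : Comm ⇑Q σ) : orderOf (fA hσ) = orderOf σ := by
  apply orderOf_eq_orderOf_iff.2
  intro k
  rw [fA_pow, fA_eq_one_iff hQ hn]

/-- partial norms and iterated maps -/
theorem map_pow_eq (g : Matrix ι ι F) (z : F) (e : g.map σ = z • g) (k : ℕ) :
    g.map (σ ^ k : F ≃+* F) = Nk σ z k • g := by
  induction k with
  | zero =>
    ext a b
    simp [Nk]
  | succ k ih =>
    have h2 : g.map (σ ^ (k + 1) : F ≃+* F) = (g.map (σ ^ k : F ≃+* F)).map σ := by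
      ext a b
      simp only [Matrix.map_apply]
      rw [pow_succ']
      rfl
    rw [h2, ih]
    have h3 : (Nk σ z k • g).map σ = σ (Nk σ z k) • g.map σ := by
      ext a b
      simp
    rw [h3, e, smul_smul, Nk, mul_comm]

theorem exists_fixed_multiple (r : ℕ) (hr : orderOf σ = r) (hr0 : 0 < r)
    (g : GL ι F) (z : F) (e : (g : Matrix ι ι F).map σ = z • (g : Matrix ι ι F)) :
    ∃ μ : F, μ ≠ 0 ∧ (μ • (g : Matrix ι ι F)).map σ = μ • (g : Matrix ι ι F) := by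
  have hσr : σ ^ r = 1 := by rw [← hr]; exact pow_orderOf_eq_one σ
  by_cases hι : IsEmpty ι
  · exact ⟨1, one_ne_zero, by ext a; exact (hι.false a).elim⟩
  rw [not_isEmpty_iff] at hι
  have h1 := map_pow_eq (g : Matrix ι ι F) z e r
  rw [hσr] at h1
  have h2 : (g : Matrix ι ι F) = Nk σ z r • (g : Matrix ι ι F) := by
    rw [← h1]
    ext a b
    rfl
  have h3 : Nk σ z r = 1 := by
    have h4 : (1 : Matrix ι ι F) = Nk σ z r • (1 : Matrix ι ι F) := by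
      have h5 := congrArg (fun M => M * ((g⁻¹ : GL ι F) : Matrix ι ι F)) h2
      simp only [Matrix.smul_mul, ← Units.val_mul, mul_inv_cancel, Units.val_one] at h5
      exact h5
    obtain ⟨i⟩ := hι
    have h6 := congrFun (congrFun h4 i) i
    simpa using h6.symm
  obtain ⟨μ, hμ, e2⟩ := hilbert90_scalar σ r hr hr0 z h3
  refine ⟨μ, hμ, ?_⟩
  have h9 : (μ • (g : Matrix ι ι F)).map σ = σ μ • (g : Matrix ι ι F).map σ := by
    ext a b
    simp
  rw [h9, e, smul_smul, mul_comm, e2]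

variable {F₀ : Type*} [Field F₀] {Q₀ : QuadraticForm F₀ (ι → F₀)} {j : F₀ →+* F}

theorem fS_comm_mapJ (hσ : Comm ⇑Q σ) (hE : Ext Q Q₀ j) (hj : ∀ a, σ a = a ↔ a ∈ Set.range j)
    (h : ↥(GO Q₀)) : fS hσ * inlO ⇑Q (mapJ hE h) = inlO ⇑Q (mapJ hE h) * fS hσ := by
  apply Subtype.ext
  apply SemidirectProduct.ext
  · change (1 : GL ι F) * mapAut σ ((mapJ hE h : ↥(GO Q)) : GL ι F) =
      ((mapJ hE h : ↥(GO Q)) : GL ι F) * mapAut (1 : F ≃+* F) (1 : GL ι F)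
    rw [one_mul, map_one, mul_one]
    apply Units.ext
    rw [coe_mapAut, coe_mapJ]
    ext a b
    exact (hj _).2 ⟨_, rfl⟩
  · change σ * 1 = 1 * σ
    rw [mul_one, one_mul]

theorem cent_char (hQ : (QuadraticMap.polarBilin Q).Nondegenerate) (hn : 5 ≤ Fintype.card ι)
    (hσ : Comm ⇑Q σ) (hE : Ext Q Q₀ j) (hj : ∀ a, σ a = a ↔ a ∈ Set.range j)
    (hx₀ : ∃ x, Q₀ x = 1) (g : ↥(GO Q)) :
    cAut ⇑Q g ∈ Subgroup.centralizer {fA hσ} ↔
      ∃ (μ : Fˣ) (h : ↥(GO Q₀)), scal Q μ * g = mapJ hE h := by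
  rw [Subgroup.mem_centralizer_singleton_iff]
  constructor
  · intro hc
    have h1 : fS hσ * inlO ⇑Q g * (fS hσ)⁻¹ * (inlO ⇑Q g)⁻¹ ∈ (sAut ⇑Q).ker := by
      rw [MonoidHom.mem_ker, map_mul, map_mul, map_mul, map_inv, map_inv, sAut_inlO]
      change fA hσ * cAut ⇑Q g * (fA hσ)⁻¹ * (cAut ⇑Q g)⁻¹ = 1
      rw [← hc]
      group
    rw [ker_sAut Q hQ hn] at h1
    obtain ⟨z, hz, hzz⟩ := h1
    obtain ⟨c, rfl⟩ := exists_scal Q hz
    have h2 : inlO ⇑Q (scal Q c) * inlO ⇑Q g * fS hσ = fS hσ * inlO ⇑Q g := by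
      rw [hzz]
      group
    have h3 := congrArg (fun y : ↥(GamO ⇑Q) => ((y : GamL ι F).left : Matrix ι ι F)) h2
    have h4 : (c : F) • ((g : GL ι F) : Matrix ι ι F) = ((g : GL ι F) : Matrix ι ι F).map σ := by
      have e1 : (((inlO ⇑Q (scal Q c) * inlO ⇑Q g * fS hσ : ↥(GamO ⇑Q)) : GamL ι F).left :
          Matrix ι ι F) = (c : F) • ((g : GL ι F) : Matrix ι ι F) := by
        change ((((scal Q c : ↥(GO Q)) : GL ι F) * mapAut (1 : F ≃+* F) (g : GL ι F) *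
          mapAut ((1 : F ≃+* F) * 1) (1 : GL ι F) : GL ι F) : Matrix ι ι F) = _
        rw [map_one, mul_one, map_one, MulAut.one_apply, Units.val_mul, Units.val_mul, coe_scal]
        simp
      have e2 : (((fS hσ * inlO ⇑Q g : ↥(GamO ⇑Q)) : GamL ι F).left : Matrix ι ι F)
          = ((g : GL ι F) : Matrix ι ι F).map σ := by
        change (((1 : GL ι F) * mapAut σ (g : GL ι F) : GL ι F) : Matrix ι ι F) = _
        rw [one_mul, coe_mapAut]
      rw [← e1, ← e2]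
      exact h3
    have : Finite (F ≃+* F) :=
      Finite.of_injective (fun τ : F ≃+* F => (τ : F → F)) DFunLike.coe_injective
    obtain ⟨μ, hμ, e2⟩ := exists_fixed_multiple (orderOf σ) rfl (orderOf_pos σ) (g : GL ι F) c h4.symm
    have h5 : ∀ a b, ∃ d, j d = μ * ((g : GL ι F) : Matrix ι ι F) a b := by
      intro a b
      have := congrFun (congrFun e2 a) b
      exact (hj _).1 this
    choose h hh using h5
    have hg₁ : (((scal Q (Units.mk0 μ hμ) * g : ↥(GO Q)) : GL ι F) : Matrix ι ι F)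
        = (Matrix.of h).map j := by
      rw [Subgroup.coe_mul, Units.val_mul, coe_scal]
      ext a b
      simp only [Matrix.map_apply, Matrix.of_apply, hh, Units.val_mk0, Matrix.smul_mul,
        Matrix.one_mul, Matrix.smul_apply, smul_eq_mul]
    have hdet : (Matrix.of h).det ≠ 0 := by
      intro h0
      have h6 : (((scal Q (Units.mk0 μ hμ) * g : ↥(GO Q)) : GL ι F) : Matrix ι ι F).det = 0 := by
        rw [hg₁, ← RingHom.mapMatrix_apply, ← RingHom.map_det, h0, map_zero]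
      have h7 : IsUnit (((scal Q (Units.mk0 μ hμ) * g : ↥(GO Q)) : GL ι F) : Matrix ι ι F).det :=
        (Matrix.isUnit_iff_isUnit_det _).1 (Units.isUnit _)
      rw [h6] at h7
      exact not_isUnit_zero h7
    obtain ⟨x₀, hx₀⟩ := hx₀
    obtain ⟨d, hd⟩ := (scal Q (Units.mk0 μ hμ) * g).2
    have h8 : ∀ v : ι → F₀, j (Q₀ (Matrix.of h *ᵥ v)) = (d : F) * j (Q₀ v) := by
      intro v
      rw [← hE, ← hE, ← map_mulVec_j, ← hg₁, hd]
    have h9 : j (Q₀ (Matrix.of h *ᵥ x₀)) = (d : F) := by rw [h8, hx₀, map_one, mul_one]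
    have h10 : Q₀ (Matrix.of h *ᵥ x₀) ≠ 0 := by
      intro h0
      rw [h0, map_zero] at h9
      exact d.ne_zero h9.symm
    refine ⟨Units.mk0 μ hμ, ⟨Matrix.GeneralLinearGroup.mkOfDetNeZero _ hdet,
      Units.mk0 _ h10, fun v => ?_⟩, ?_⟩
    · apply j.injective
      change j (Q₀ (Matrix.of h *ᵥ v)) = _
      rw [h8, map_mul, Units.val_mk0, h9]
    · apply Subtype.ext
      apply Units.ext
      exact hg₁
  · rintro ⟨μ, h, e⟩
    have h1 : cAut ⇑Q g = cAut ⇑Q (mapJ hE h) := by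
      rw [← e, map_mul, cAut_eq_one_of_scalar Q _ (scal_mem Q μ), one_mul]
    rw [h1, ← sAut_inlO]
    unfold fA
    rw [← map_mul, ← map_mul, fS_comm_mapJ hσ hE hj]

theorem range_eq (hQ : (QuadraticMap.polarBilin Q).Nondegenerate) (hn : 5 ≤ Fintype.card ι)
    (hσ : Comm ⇑Q σ) (hE : Ext Q Q₀ j) (hj : ∀ a, σ a = a ↔ a ∈ Set.range j)
    (hx₀ : ∃ x, Q₀ x = 1) (D : Subgroup ↥(GO Q)) (D₀ : Subgroup ↥(GO Q₀)) (hZ : ZZ Q ≤ D)
    (hD : ∀ h, mapJ hE h ∈ D ↔ h ∈ D₀) :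
    (D₀.map (mapJ hE)).map (cAut ⇑Q) = D.map (cAut ⇑Q) ⊓ Subgroup.centralizer {fA hσ} := by
  ext y
  constructor
  · rintro ⟨_, ⟨h, hh, rfl⟩, rfl⟩
    refine ⟨⟨_, (hD h).2 hh, rfl⟩, ?_⟩
    exact (cent_char hQ hn hσ hE hj hx₀ _).2 ⟨1, h, by rw [scal_one, one_mul]⟩
  · rintro ⟨⟨g, hg, rfl⟩, hc⟩
    obtain ⟨μ, h, e⟩ := (cent_char hQ hn hσ hE hj hx₀ g).1 hc
    refine ⟨mapJ hE h, ⟨h, ?_, rfl⟩, ?_⟩
    · rw [SetLike.mem_coe, ← hD, ← e]
      exact mul_mem (hZ (scal_mem Q μ)) hg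
    · rw [← e, map_mul, cAut_eq_one_of_scalar Q _ (scal_mem Q μ), one_mul]

theorem cent_equiv [Fintype F₀] (hQ : (QuadraticMap.polarBilin Q).Nondegenerate)
    (hQ₀ : (QuadraticMap.polarBilin Q₀).Nondegenerate) (hn : 5 ≤ Fintype.card ι)
    (hσ : Comm ⇑Q σ) (hE : Ext Q Q₀ j) (hj : ∀ a, σ a = a ↔ a ∈ Set.range j)
    (hx₀ : ∃ x, Q₀ x = 1) (D : Subgroup ↥(GO Q)) (D₀ : Subgroup ↥(GO Q₀)) (hZ : ZZ Q ≤ D)
    (hD : ∀ h, mapJ hE h ∈ D ↔ h ∈ D₀) :
    Nonempty (↥(D.map (cAut ⇑Q) ⊓ Subgroup.centralizer {fA hσ}) ≃* ↥(D₀.map (cAut ⇑Q₀))) := by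
  have : Nonempty ι := Fintype.card_pos_iff.1 (by omega)
  let Ψ₁ : ↥D₀ →* MulAut (POmega F ⇑Q) := (cAut ⇑Q).comp ((mapJ hE).comp D₀.subtype)
  let Ψ₂ : ↥D₀ →* MulAut (POmega F₀ ⇑Q₀) := (cAut ⇑Q₀).comp D₀.subtype
  have hker : Ψ₁.ker = Ψ₂.ker := by
    ext x
    have h1 : x ∈ Ψ₁.ker ↔ mapJ hE (x : ↥(GO Q₀)) ∈ (cAut ⇑Q).ker := Iff.rfl
    have h2 : x ∈ Ψ₂.ker ↔ (x : ↥(GO Q₀)) ∈ (cAut ⇑Q₀).ker := Iff.rfl
    rw [h1, h2, ker_cAut_all Q hQ hn, ker_cAut_all Q₀ hQ₀ hn, mapJ_mem_ZZ_iff]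
  have hr1 : Ψ₁.range = D.map (cAut ⇑Q) ⊓ Subgroup.centralizer {fA hσ} := by
    rw [← range_eq hQ hn hσ hE hj hx₀ D D₀ hZ hD, MonoidHom.range_comp, MonoidHom.range_comp,
      Subgroup.range_subtype]
  have hr2 : Ψ₂.range = D₀.map (cAut ⇑Q₀) := by
    rw [MonoidHom.range_comp, Subgroup.range_subtype]
  exact ⟨(MulEquiv.subgroupCongr hr1.symm).trans ((QuotientGroup.quotientKerEquivRange Ψ₁).symm.trans
    ((QuotientGroup.quotientMulEquivOfEq hker).trans ((QuotientGroup.quotientKerEquivRange Ψ₂).trans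
      (MulEquiv.subgroupCongr hr2))))⟩

theorem split_eq (hQ : (QuadraticMap.polarBilin Q).Nondegenerate) (hn : 5 ≤ Fintype.card ι)
    (hσ : Comm ⇑Q σ) (hE : Ext Q Q₀ j) (hj : ∀ a, σ a = a ↔ a ∈ Set.range j)
    (hx₀ : ∃ x, Q₀ x = 1) (D : Subgroup ↥(GO Q)) (D₀ : Subgroup ↥(GO Q₀)) (hZ : ZZ Q ≤ D)
    (hO : Om' Q ≤ D) (hD : ∀ h, mapJ hE h ∈ D ↔ h ∈ D₀) :
    splitClassCount (D.map (cAut ⇑Q)) (Inn (POmega F ⇑Q)) (fA hσ) =
      ((Om' Q ⊔ ZZ Q) ⊔ D₀.map (mapJ hE)).relIndex D := by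
  have hle : Inn (POmega F ⇑Q) ≤ D.map (cAut ⇑Q) := by
    rw [inn_eq]
    exact Subgroup.map_mono hO
  rw [splitClassCount_eq _ _ hle, ← range_eq hQ hn hσ hE hj hx₀ D D₀ hZ hD, inn_eq,
    ← Subgroup.map_sup, Subgroup.relIndex_map_map, ker_cAut_all Q hQ hn, sup_eq_left.2 hZ]
  congr 1
  rw [sup_assoc, sup_assoc, sup_comm (ZZ Q)]

end Cfsg.Agent.Lib.Helper18GamF
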