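import Mathlib
import Cfsg.Agent.Lib.Helper18GamF
import Cfsg.Agent.Lib.Helper49CD
import Cfsg.Agent.Lib.Helper51OrthIdx4

/-!
# Extension of scalars and reflections; spinor norms under extension of scalars
-/

set_option autoImplicit false
set_option linter.unusedSectionVars false

namespace Cfsg.Agent.Lib.Helper18GamG

open Cfsg Matrix Module
open scoped MatrixGroups
open Cfsg.Agent.Lib.Helper49Orth Cfsg.Agent.Lib.Helper49CD Cfsg.Agent.Lib.Helper49Idx
  Cfsg.Agent.Lib.Helper51OrthAut Cfsg.Agent.Lib.Helper51OrthKer Cfsg.Agent.Lib.Helper51OrthIdx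
  Cfsg.Agent.Lib.Helper51OrthIdx2 Cfsg.Agent.Lib.Helper51OrthIdx3 Cfsg.Agent.Lib.Helper51OrthIdx4
  Cfsg.Agent.Lib.Helper18GamA Cfsg.Agent.Lib.Helper18GamB Cfsg.Agent.Lib.Helper18GamC
  Cfsg.Agent.Lib.Helper18GamE Cfsg.Agent.Lib.Helper18GamF

variable {F : Type*} [Field F] {F₀ : Type*} [Field F₀]
variable {ι : Type} [Fintype ι] [DecidableEq ι]
variable {Q : QuadraticForm F (ι → F)} {Q₀ : QuadraticForm F₀ (ι → F₀)} {j : F₀ →+* F}

/-- Entrywise application of `j`. -/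
def jv (j : F₀ →+* F) (v : ι → F₀) : ι → F := fun i => j (v i)

theorem jv_add (u v : ι → F₀) : jv j (u + v) = jv j u + jv j v := by
  funext i
  simp [jv]

theorem Q_jv (hE : Ext Q Q₀ j) (v : ι → F₀) : Q (jv j v) = j (Q₀ v) := hE v

theorem polar_jv (hE : Ext Q Q₀ j) (u v : ι → F₀) :
    QuadraticMap.polar ⇑Q (jv j u) (jv j v) = j (QuadraticMap.polar ⇑Q₀ u v) := by
  unfold QuadraticMap.polar
  rw [← jv_add, Q_jv hE, Q_jv hE, Q_jv hE, map_sub, map_sub]

theorem refl_jv (hE : Ext Q Q₀ j) (v : ι → F₀) :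
    (reflectionMatrix ⇑Q₀ v).map j = reflectionMatrix ⇑Q (jv j v) := by
  apply Matrix.ext_of_mulVec_single
  intro k
  have e : (Pi.single k 1 : ι → F) = jv j (Pi.single k 1) := (Helper18GamE.map_single k).symm
  rw [e]
  have h1 : (reflectionMatrix ⇑Q₀ v).map j *ᵥ jv j (Pi.single k 1)
      = jv j (reflectionMatrix ⇑Q₀ v *ᵥ Pi.single k 1) := map_mulVec_j _ _
  rw [h1, refl_mulVec, refl_mulVec, polar_jv hE, Q_jv hE]
  funext i
  simp [jv]

/-- Extension of scalars on isometry groups. -/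
def mapO (hE : Ext Q Q₀ j) : ↥(isometryGroup F₀ ⇑Q₀) →* ↥(isometryGroup F ⇑Q) where
  toFun g := ⟨Matrix.GeneralLinearGroup.map j (g : GL ι F₀), by
    rw [mem_iso]
    intro v
    have := hE.sim ((g : GL ι F₀) : Matrix ι ι F₀) 1 (fun v => by
      rw [iso_apply (Q := ⇑Q₀), one_mul]) v
    rw [map_one, one_mul] at this
    exact this⟩
  map_one' := Subtype.ext (map_one _)
  map_mul' a b := Subtype.ext (map_mul _ _ _)

theorem coe_mapO (hE : Ext Q Q₀ j) (g : ↥(isometryGroup F₀ ⇑Q₀)) :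
    (((mapO hE g : ↥(isometryGroup F ⇑Q)) : GL ι F) : Matrix ι ι F)
      = ((g : GL ι F₀) : Matrix ι ι F₀).map j := rfl

theorem incO_mapO (hE : Ext Q Q₀ j) (g : ↥(isometryGroup F₀ ⇑Q₀)) :
    incO Q (mapO hE g) = mapJ hE (incO Q₀ g) := rfl

theorem ne_zero_jv (hE : Ext Q Q₀ j) {v : ι → F₀} (hv : Q₀ v ≠ 0) : Q (jv j v) ≠ 0 := by
  rw [Q_jv hE]
  exact (map_ne_zero j).2 hv

theorem mapO_reflO (hE : Ext Q Q₀ j) {v : ι → F₀} (hv : Q₀ v ≠ 0) :
    mapO hE (reflO Q₀ hv) = reflO Q (ne_zero_jv hE hv) := by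
  apply iso_ext
  rw [coe_mapO, coe_reflO, coe_reflO, refl_jv hE]

theorem mapO_prod (hE : Ext Q Q₀ j) (vs : List (ι → F₀)) (hvs : ∀ v ∈ vs, Q₀ v ≠ 0) :
    mapO hE (vs.map (reflO' Q₀)).prod = ((vs.map (jv j)).map (reflO' Q)).prod := by
  induction vs with
  | nil => simp
  | cons v vs ih =>
    have hv := hvs v List.mem_cons_self
    simp only [List.map_cons, List.prod_cons, map_mul]
    rw [ih (fun w hw => hvs w (List.mem_cons_of_mem _ hw)), reflO'_eq Q₀ hv,
      reflO'_eq Q (ne_zero_jv hE hv), mapO_reflO]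

theorem mapO_mem_Omega (hE : Ext Q Q₀ j) {g : ↥(isometryGroup F₀ ⇑Q₀)}
    (hg : g ∈ Omega F₀ ⇑Q₀) : mapO hE g ∈ Omega F ⇑Q := by
  have h1 : (commutator ↥(isometryGroup F₀ ⇑Q₀)).map (mapO hE) ≤
      commutator ↥(isometryGroup F ⇑Q) := by
    unfold commutator
    rw [Subgroup.map_commutator]
    exact Subgroup.commutator_mono le_top le_top
  exact h1 ⟨g, hg, rfl⟩

section odd

variable [Fintype F] [Fintype F₀]

/-- If all elements of the small field become squares, `SO(Q₀)` lands in `Ω(Q)`. -/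
theorem mapJ_SO_le (hE : Ext Q Q₀ j) (h2 : (2 : F) ≠ 0) (h2' : (2 : F₀) ≠ 0)
    (hQ₀ : (QuadraticMap.polarBilin Q₀).Nondegenerate) (hsq : ∀ c : F₀, IsSquare (j c)) :
    (SO' Q₀).map (mapJ hE) ≤ Om' Q := by
  rintro _ ⟨s, hs, rfl⟩
  rw [SetLike.mem_coe, SO'_eq] at hs
  obtain ⟨y, hy, rfl⟩ := hs
  have hy' : detO Q₀ y = 1 := hy
  obtain ⟨vs, hvs, rfl⟩ := exists_list_refl Q₀ h2' hQ₀ y
  rw [detO_prod Q₀ vs hvs] at hy'
  have hlen := even_of_neg_one_pow h2' hy'
  rw [← incO_mapO, incO_mem_Om', mapO_prod hE vs hvs]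
  apply prod_reflO'_mem Q h2
  · intro w hw
    obtain ⟨v, hv, rfl⟩ := List.mem_map.1 hw
    exact ne_zero_jv hE (hvs v hv)
  · rw [List.length_map]
    exact hlen
  · have : ((vs.map (jv j)).map (fun v => Q v)).prod = j ((vs.map (fun v => Q₀ v)).prod) := by
      rw [map_list_prod, List.map_map, List.map_map]
      congr 1
      apply List.map_congr_left
      intro v _
      exact Q_jv hE v
    rw [this]
    exact hsq _

/-- If some element of the small field stays a non-square, `SO(Q₀)` does not land in `Ω(Q)`. -/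
theorem exists_SO_not_mem (hE : Ext Q Q₀ j) (h2 : (2 : F) ≠ 0) (h2' : (2 : F₀) ≠ 0)
    (hQ₀ : (QuadraticMap.polarBilin Q₀).Nondegenerate) (hcard : 2 ≤ Fintype.card ι)
    {c : F₀} (hc : ¬ IsSquare (j c)) :
    ∃ s ∈ SO' Q₀, mapJ hE s ∈ SO' Q ∧ mapJ hE s ∉ Om' Q := by
  obtain ⟨u, hu⟩ := exists_Q_eq Q₀ h2' hQ₀ hcard 1
  obtain ⟨v, hv⟩ := exists_Q_eq Q₀ h2' hQ₀ hcard c
  have hc0 : c ≠ 0 := by
    rintro rfl
    rw [map_zero] at hc
    exact hc IsSquare.zero
  have hu0 : Q₀ u ≠ 0 := by rw [hu]; exact one_ne_zero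
  have hv0 : Q₀ v ≠ 0 := by rw [hv]; exact hc0
  refine ⟨incO Q₀ (reflO Q₀ hu0 * reflO Q₀ hv0), ?_, ?_, ?_⟩
  · rw [incO_mem_SO', map_mul, detO_reflO, detO_reflO]
    simp
  · rw [← incO_mapO, incO_mem_SO', map_mul, mapO_reflO, mapO_reflO, map_mul, detO_reflO, detO_reflO]
    simp
  · rw [← incO_mapO, incO_mem_Om', map_mul, mapO_reflO, mapO_reflO]
    apply refl_refl_not_mem Q h2
    rw [Q_jv hE, Q_jv hE, hu, hv, map_one, one_mul]
    exact hc

end odd

/-! ### squares under field extensions -/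

section squares

variable {σ : F ≃+* F}

/-- Odd degree: non-squares stay non-squares. -/
theorem not_isSquare_of_odd (h2 : (2 : F) ≠ 0) (hj : ∀ a, σ a = a ↔ a ∈ Set.range j) {r : ℕ}
    (hr : σ ^ r = 1) (hodd : Odd r) {c : F₀} (hc : ¬ IsSquare c) : ¬ IsSquare (j c) := by
  rintro ⟨y, hy⟩
  have h1 : σ y * σ y = y * y := by
    rw [← map_mul, ← hy]
    exact (hj _).2 ⟨c, rfl⟩
  rcases mul_self_eq_mul_self_iff.1 h1 with h | h
  · obtain ⟨d, rfl⟩ := (hj _).1 h
    apply hc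
    refine ⟨d, j.injective ?_⟩
    rw [hy, map_mul]
  · have h3 : ∀ k : ℕ, (σ ^ k) y = (-1) ^ k * y := by
      intro k
      induction k with
      | zero => simp
      | succ k ih =>
        rw [pow_succ']
        change σ ((σ ^ k) y) = _
        rw [ih, map_mul, map_pow, map_neg, map_one, h]
        ring
    have h4 := h3 r
    rw [hr, hodd.neg_one_pow] at h4
    have h5 : y = -1 * y := h4
    have h6 : (2 : F) * y = 0 := by linear_combination h5
    have h7 : y = 0 := (mul_eq_zero.1 h6).resolve_left h2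
    apply hc
    refine ⟨0, j.injective ?_⟩
    rw [hy, h7]
    simp

/-- Degree two: everything becomes a square. -/
theorem isSquare_of_card_sq [Fintype F] [Fintype F₀] (h2 : (2 : F) ≠ 0)
    (hcard : Fintype.card F = Fintype.card F₀ ^ 2) (c : F₀) : IsSquare (j c) := by
  by_cases hc : c = 0
  · rw [hc, map_zero]
    exact IsSquare.zero
  have hch : ringChar F ≠ 2 := ringChar_ne_two h2
  rw [FiniteField.isSquare_iff hch ((map_ne_zero j).2 hc), ← map_pow]
  have hodd : Odd (Fintype.card F₀) := by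
    have h3 : Odd (Fintype.card F) := by
      rw [Nat.odd_iff]
      exact FiniteField.odd_card_of_char_ne_two hch
    rw [hcard] at h3
    exact (Nat.odd_pow_iff (by norm_num)).1 h3
  obtain ⟨k, hk⟩ := hodd
  have h4 : Fintype.card F / 2 = (Fintype.card F₀ - 1) * (k + 1) := by
    rw [hcard, hk]
    have : (2 * k + 1) ^ 2 = 2 * ((2 * k + 1 - 1) * (k + 1)) + 1 := by
      rw [Nat.add_sub_cancel]
      ring
    rw [this]
    omega
  rw [h4, pow_mul, FiniteField.pow_card_sub_one_eq_one c hc, one_pow, map_one]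

end squares

end Cfsg.Agent.Lib.Helper18GamG
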