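import Mathlib
import Cfsg.Prelude
import Cfsg.Agent.Lib.Helper50Aut
import Cfsg.Agent.Lib.Helper50AutStr
import Cfsg.Agent.Lib.Helper50H90
import Cfsg.Agent.Lib.Helper50HermM

set_option autoImplicit false

namespace Cfsg.Agent.Lib.Helper50Twist

open Matrix Cfsg.Agent.Lib.Helper50Aut Cfsg.Agent.Lib.Helper50AutStr Cfsg.Agent.Lib.Helper50H90
  Cfsg.Agent.Lib.Helper50HermM

variable {F : Type*} [Field F] {n : ℕ}

local notation "SLn" => Matrix.SpecialLinearGroup (Fin n) F
local notation "Mn" => Matrix (Fin n) (Fin n) F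
local notation "π" => (QuotientGroup.mk : Matrix.SpecialLinearGroup (Fin n) F →
  Matrix.SpecialLinearGroup (Fin n) F ⧸ Subgroup.center (Matrix.SpecialLinearGroup (Fin n) F))
local notation "AutP" => MulAut (Matrix.ProjectiveSpecialLinearGroup (Fin n) F)

theorem isInnerDiagonal_iff (β : AutP) :
    Cfsg.IsInnerDiagonalAutPSL β ↔ β ∈ (cHom : GL (Fin n) F →* AutP).range := by
  constructor
  · rintro ⟨g, h⟩
    refine ⟨g, ?_⟩
    ext x
    obtain ⟨s, rfl⟩ := QuotientGroup.mk_surjective x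
    rw [h s (conjGL g s) rfl]
    rfl
  · rintro ⟨g, rfl⟩
    exact isInnerDiagonal_lift g

theorem inndiag_eq : Cfsg.inndiagPSL n F = (cHom : GL (Fin n) F →* AutP).range := by
  unfold Cfsg.inndiagPSL Cfsg.autSubgroupOf
  have : {β : AutP | Cfsg.IsInnerDiagonalAutPSL β} = ((cHom : GL (Fin n) F →* AutP).range : Set AutP) := by
    ext β
    exact isInnerDiagonal_iff β
  rw [this, Subgroup.closure_eq]

theorem isStdField_iff (σ : F ≃+* F) (φ : AutP) : Cfsg.IsStdFieldAutPSL σ φ ↔ φ = fHom σ := by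
  constructor
  · intro h
    ext x
    obtain ⟨s, rfl⟩ := QuotientGroup.mk_surjective x
    rw [h s (mapEquiv σ s) rfl]
    rfl
  · rintro rfl
    exact isStdField_lift σ

theorem isInvT_iff (γ : AutP) : Cfsg.IsInverseTransposeAutPSL γ ↔ γ = iota := by
  constructor
  · intro h
    ext x
    obtain ⟨s, rfl⟩ := QuotientGroup.mk_surjective x
    rw [h s (invT s) rfl]
    rfl
  · rintro rfl
    exact isInvT_lift

theorem fHom_injective (hn : 2 ≤ n) : Function.Injective (fHom : (F ≃+* F) →* AutP) := by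
  rw [injective_iff_map_eq_one]
  intro σ h
  refine (cHom_mul_fHom_eq_one hn 1 σ ?_).1
  rw [map_one, one_mul, h]

/-- abbreviation for the entrywise map on `GL` -/
noncomputable abbrev gmap (σ : F ≃+* F) : GL (Fin n) F →* GL (Fin n) F :=
  Matrix.GeneralLinearGroup.map (σ : F →+* F)

theorem gmap_coe (σ : F ≃+* F) (g : GL (Fin n) F) : (gmap σ g : Mn) = (g : Mn).map σ := rfl

/-- partial norms in `GL` -/
noncomputable def NkGL (σ : F ≃+* F) (g : GL (Fin n) F) : ℕ → GL (Fin n) F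
  | 0 => 1
  | k + 1 => g * gmap σ (NkGL σ g k)

theorem NkGL_coe (σ : F ≃+* F) (g : GL (Fin n) F) (k : ℕ) : (NkGL σ g k : Mn) = NkM σ (g : Mn) k := by
  induction k with
  | zero => rfl
  | succ k ih =>
    simp only [NkGL, NkM, Units.val_mul, gmap_coe, ih]

theorem pow_cHom_fHom (σ : F ≃+* F) (g : GL (Fin n) F) (k : ℕ) :
    (cHom g * fHom σ : AutP) ^ k = cHom (NkGL σ g k) * fHom σ ^ k := by
  induction k with
  | zero => simp [NkGL]
  | succ k ih =>
    rw [pow_succ', ih, NkGL, map_mul, pow_succ']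
    calc cHom g * fHom σ * (cHom (NkGL σ g k) * fHom σ ^ k)
        = cHom g * (fHom σ * cHom (NkGL σ g k)) * fHom σ ^ k := by simp only [mul_assoc]
      _ = _ := by rw [fHom_mul_cHom]; simp only [mul_assoc]

/-- general principle: twisted coboundaries give conjugates -/
theorem conj_of_twist (t : AutP) (g h h' : GL (Fin n) F) (ht : t * cHom h = cHom h' * t)
    (hg : (cHom g : AutP) = cHom (h * h'⁻¹)) : cHom g * t = cHom h * t * (cHom h : AutP)⁻¹ := by
  rw [hg, map_mul, map_inv]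
  have : (cHom h' : AutP)⁻¹ * t = t * (cHom h)⁻¹ := by
    rw [inv_mul_eq_iff_eq_mul, ← mul_assoc, ← ht, mul_inv_cancel_right]
  rw [mul_assoc, this, mul_assoc]

theorem cHom_smul (c : F) (hc : c ≠ 0) (g g1 : GL (Fin n) F) (h : (g1 : Mn) = c • (g : Mn)) :
    (cHom g1 : AutP) = cHom g := by
  have h1 : g1 = Matrix.GeneralLinearGroup.scalar (Fin n) (Units.mk0 c hc) * g := by
    ext a b
    rw [h, Units.val_mul, Matrix.GeneralLinearGroup.coe_scalar]
    simp [Matrix.scalar_apply, Matrix.diagonal_mul]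
  rw [h1, map_mul, cHom_eq_one_of_mem_center, one_mul]
  rw [Matrix.GeneralLinearGroup.center_eq_range_scalar]
  exact ⟨_, rfl⟩

/-- field case -/
theorem field_conj [Finite F] (hn : 2 ≤ n) (σ : F ≃+* F) (r : ℕ) (hr : orderOf σ = r) (hr0 : 0 < r)
    (g : GL (Fin n) F) (h1 : (cHom g * fHom σ : AutP) ^ r = 1) :
    ∃ h : GL (Fin n) F, (cHom g * fHom σ : AutP) = cHom h * fHom σ * (cHom h)⁻¹ := by
  rw [pow_cHom_fHom, ← map_pow] at h1
  have h2 := (cHom_mul_fHom_eq_one hn _ _ h1).2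
  rw [Matrix.GeneralLinearGroup.mem_center_iff_val_mem_range_scalar] at h2
  obtain ⟨z, hz⟩ := h2
  have h3 : NkM σ (g : Mn) r = z • 1 := by
    rw [← NkGL_coe, ← hz]
    ext a b
    simp [Matrix.scalar_apply, Matrix.diagonal_apply, Matrix.one_apply]
  obtain ⟨c, M, M', hc, e1, e2, e3⟩ := hilbert90_PGL σ r hr hr0 (g : Mn) _ (gl_mul_inv g) (by omega) z h3
  let h : GL (Fin n) F := ⟨M, M', e1, e2⟩
  refine ⟨h, conj_of_twist _ g h _ (fHom_mul_cHom σ h) ?_⟩
  symm
  apply cHom_smul c hc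
  have e4 : ((h * (gmap σ h)⁻¹ : GL (Fin n) F) : Mn) * (gmap σ h : Mn) = M := by
    rw [← Units.val_mul, inv_mul_cancel_right]
  have e5 : (c • (g : Mn)) * (gmap σ h : Mn) = M := e3
  have e6 := e4.trans e5.symm
  have e7 := congrArg (· * (((gmap σ h)⁻¹ : GL (Fin n) F) : Mn)) e6
  simp only [mul_assoc, gl_mul_inv, mul_one] at e7
  exact e7

theorem gf_mul_cHom (σ : F ≃+* F) (h : GL (Fin n) F) :
    (fHom σ * iota : AutP) * cHom h = cHom (gmap σ (invTGL h)) * (fHom σ * iota) := by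
  rw [mul_assoc, iota_mul_cHom, ← mul_assoc, fHom_mul_cHom, mul_assoc]

theorem gf_mul_self (σ : F ≃+* F) (hσ2 : σ * σ = 1) :
    (fHom σ * iota : AutP) * (fHom σ * iota) = 1 := by
  calc (fHom σ * iota : AutP) * (fHom σ * iota) = fHom σ * (iota * fHom σ) * iota := by
        simp only [mul_assoc]
    _ = fHom (σ * σ) * (iota * iota) := by rw [iota_mul_fHom, map_mul]; simp only [mul_assoc]
    _ = 1 := by rw [hσ2, map_one, iota_mul_self, one_mul]

theorem map_map_of_sq (σ : F ≃+* F) (hσ2 : σ * σ = 1) (G : Mn) : (G.map σ).map σ = G := by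
  ext a b
  exact congrFun (congrArg DFunLike.coe hσ2) (G a b)

/-- graph-field case -/
theorem graphfield_conj [Finite F] (hn : 2 ≤ n) (σ : F ≃+* F) (hσ : σ ≠ 1) (hσ2 : σ * σ = 1)
    (g : GL (Fin n) F) (h1 : (cHom g * (fHom σ * iota) : AutP) ^ 2 = 1) :
    ∃ h : GL (Fin n) F, (cHom g * (fHom σ * iota) : AutP)
      = cHom h * (fHom σ * iota) * (cHom h)⁻¹ := by
  have hσa : ∀ a, σ (σ a) = a := fun a => congrFun (congrArg DFunLike.coe hσ2) a
  have h2 : (cHom (g * gmap σ (invTGL g)) : AutP) = 1 := by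
    rw [← h1, pow_two, map_mul]
    calc (cHom g * cHom (gmap σ (invTGL g)) : AutP)
        = cHom g * cHom (gmap σ (invTGL g)) * ((fHom σ * iota) * (fHom σ * iota)) := by
          rw [gf_mul_self σ hσ2, mul_one]
      _ = cHom g * (cHom (gmap σ (invTGL g)) * (fHom σ * iota)) * (fHom σ * iota) := by
          simp only [mul_assoc]
      _ = _ := by rw [← gf_mul_cHom]; simp only [mul_assoc]
  have h3 : g * gmap σ (invTGL g) ∈ Subgroup.center (GL (Fin n) F) := by
    rw [← ker_cHom hn]; exact h2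
  rw [Matrix.GeneralLinearGroup.mem_center_iff_val_mem_range_scalar] at h3
  obtain ⟨z, hz⟩ := h3
  set G : Mn := (g : Mn) with hG
  set G' : Mn := ((g⁻¹ : GL (Fin n) F) : Mn) with hG'
  have hGG' : G * G' = 1 := gl_mul_inv g
  have hG'G : G' * G = 1 := gl_inv_mul g
  have e1 : G * (G'ᵀ).map σ = z • 1 := by
    have : ((g * gmap σ (invTGL g) : GL (Fin n) F) : Mn) = G * (G'ᵀ).map σ := rfl
    rw [← this, ← hz]
    ext a b
    simp [Matrix.scalar_apply, Matrix.diagonal_apply, Matrix.one_apply]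
  have hmapone : (1 : Mn).map σ = 1 := Matrix.map_one (σ : F →+* F) (map_zero _) (map_one _)
  have e2 : (G'ᵀ).map σ * (G.map σ)ᵀ = 1 := by
    have h4 := Matrix.map_mul (f := (σ : F →+* F)) (L := G'ᵀ) (M := Gᵀ)
    simp only [RingHom.coe_coe] at h4
    have h5 : (G.map σ)ᵀ = (Gᵀ).map σ := rfl
    rw [h5, ← h4, ← Matrix.transpose_mul, hGG', Matrix.transpose_one, hmapone]
  have e3 : G = z • (G.map σ)ᵀ := by
    have := congrArg (· * (G.map σ)ᵀ) e1
    simp only [mul_assoc, e2, mul_one, smul_mul_assoc, one_mul] at this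
    exact this
  have e4 : (G.map σ)ᵀ = σ z • G := by
    conv_lhs => rw [e3]
    ext a b
    simp [hσa]
  have e5 : z * σ z = 1 := by
    have h6 : G = (z * σ z) • G := by
      conv_lhs => rw [e3, e4, smul_smul]
    have h7 := congrArg (· * G') h6
    simp only [smul_mul_assoc, hGG'] at h7
    have h8 := congrFun (congrFun h7 ⟨0, by omega⟩) ⟨0, by omega⟩
    simpa using h8.symm
  have hz0 : z ≠ 0 := by
    rintro rfl
    simp at e5
  have hord : orderOf σ = 2 := orderOf_eq_prime (by rw [pow_two]; exact hσ2) hσ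
  obtain ⟨μ, hμ, e6⟩ := hilbert90_scalar σ 2 hord (by norm_num) z⁻¹ (by
    simp only [Nk, map_one, mul_one, map_inv₀]
    rw [← mul_inv, e5, inv_one])
  have e7 : ((μ • G).map σ)ᵀ = μ • G := by
    have h9 : ((μ • G).map σ)ᵀ = σ μ • (G.map σ)ᵀ := by
      ext a b
      simp
    rw [h9, e4, smul_smul]
    congr 1
    have h10 : σ z = z⁻¹ := eq_inv_of_mul_eq_one_right e5
    rw [h10, mul_comm]
    exact e6
  obtain ⟨h, h', k1, k2, k3⟩ := hermitian_matrix_eq σ hσ hσa (μ • G) (μ⁻¹ • G') (by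
    rw [smul_mul_assoc, mul_smul_comm, smul_smul, mul_inv_cancel₀ hμ, one_smul, hGG']) e7
  let hh : GL (Fin n) F := ⟨h, h', k1, k2⟩
  refine ⟨hh, conj_of_twist _ g hh _ (gf_mul_cHom σ hh) ?_⟩
  symm
  apply cHom_smul μ hμ
  rw [← hG, k3, ← map_inv]
  rfl

end Cfsg.Agent.Lib.Helper50Twist
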