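import Mathlib
import Cfsg.Prelude
import Cfsg.Agent.Lib.Helper50Aut
import Cfsg.Agent.Lib.Helper50AutStr
import Cfsg.Agent.Lib.Helper50Out
import Cfsg.Agent.Lib.Helper50H90
import Cfsg.Agent.Lib.Helper50Twist
import Cfsg.Agent.Lib.Helper50Split
import Cfsg.Agent.Lib.Helper50Std

set_option autoImplicit false

namespace Cfsg.Agent.Lib.Helper50Cent

open Matrix Cfsg.Agent.Lib.Helper50Aut Cfsg.Agent.Lib.Helper50AutStr Cfsg.Agent.Lib.Helper50H90
  Cfsg.Agent.Lib.Helper50Twist Cfsg.Agent.Lib.Helper50Split Cfsg.Agent.Lib.Helper50Out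

variable {F : Type*} [Field F] {n : ℕ}

local notation "SLn" => Matrix.SpecialLinearGroup (Fin n) F
local notation "Mn" => Matrix (Fin n) (Fin n) F
local notation "AutP" => MulAut (Matrix.ProjectiveSpecialLinearGroup (Fin n) F)
local notation "detG" => (Matrix.GeneralLinearGroup.det : GL (Fin n) F →* Fˣ)

theorem inn_le_range : Cfsg.Inn (Matrix.ProjectiveSpecialLinearGroup (Fin n) F)
    ≤ (cHom : GL (Fin n) F →* AutP).range := by
  rintro _ ⟨x, rfl⟩
  obtain ⟨s, rfl⟩ := QuotientGroup.mk_surjective x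
  exact ⟨_, cHom_toGL s⟩

/-- the class splitting number in terms of determinants of the centraliser -/
theorem split_count [Fintype F] (hn : 2 ≤ n) (t : AutP) (E : Subgroup Fˣ)
    (hE : ∀ g : GL (Fin n) F, cHom g ∈ Subgroup.centralizer {t} →
      detG g ∈ (powMonoidHom n : Fˣ →* Fˣ).range ⊔ E)
    (hE' : ∀ a ∈ E, ∃ g : GL (Fin n) F, cHom g ∈ Subgroup.centralizer {t} ∧ detG g = a) :
    Cfsg.splitClassCount (Cfsg.inndiagPSL n F) (Cfsg.Inn (Matrix.ProjectiveSpecialLinearGroup (Fin n) F)) t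
      = Nat.gcd n E.index := by
  have : Nonempty (Fin n) := ⟨⟨0, by omega⟩⟩
  rw [inndiag_eq, splitClassCount_eq _ _ inn_le_range, ← Subgroup.index_comap]
  have hdet : Function.Surjective detG := Matrix.GeneralLinearGroup.det_surjective
  have key : (Cfsg.Inn (Matrix.ProjectiveSpecialLinearGroup (Fin n) F) ⊔
      ((cHom : GL (Fin n) F →* AutP).range ⊓ Subgroup.centralizer {t})).comap cHom
      = ((powMonoidHom n : Fˣ →* Fˣ).range ⊔ E).comap detG := by
    ext g
    rw [Subgroup.mem_comap, Subgroup.mem_comap, Subgroup.mem_sup_of_normal_left]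
    constructor
    · rintro ⟨i, hi, c, ⟨⟨g₂, rfl⟩, hc⟩, e⟩
      have h1 : cHom (g * g₂⁻¹) = i := by
        rw [map_mul, map_inv, ← e, mul_inv_cancel_right]
      rw [← h1, cHom_mem_inn_iff hn] at hi
      have h2 : detG g = detG (g * g₂⁻¹) * detG g₂ := by
        rw [← map_mul, inv_mul_cancel_right]
      rw [h2]
      exact mul_mem (Subgroup.mem_sup_left hi) (hE g₂ hc)
    · intro h
      obtain ⟨a, ha, b, hb, e⟩ := Subgroup.mem_sup.1 h
      obtain ⟨g₂, hg₂, rfl⟩ := hE' b hb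
      refine ⟨cHom (g * g₂⁻¹), ?_, cHom g₂, ⟨⟨g₂, rfl⟩, hg₂⟩, ?_⟩
      · rw [cHom_mem_inn_iff hn, map_mul, map_inv, ← e, mul_inv_cancel_right]
        exact ha
      · rw [← map_mul, inv_mul_cancel_right]
  rw [key, Subgroup.index_comap_of_surjective _ hdet, index_range_pow_sup]

theorem mem_centralizer_iff_of_twist (hn : 2 ≤ n) (t : AutP) (g g' : GL (Fin n) F)
    (ht : t * cHom g = cHom g' * t) :
    cHom g ∈ Subgroup.centralizer {t} ↔ ∃ z : F, z ≠ 0 ∧ (g' : Mn) = z • (g : Mn) := by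
  rw [Subgroup.mem_centralizer_singleton_iff]
  constructor
  · intro h
    have h1 : (cHom g : AutP) = cHom g' := mul_right_cancel (h.trans ht)
    have h2 : g' * g⁻¹ ∈ (cHom : GL (Fin n) F →* AutP).ker := by
      rw [MonoidHom.mem_ker, map_mul, map_inv, h1, mul_inv_cancel]
    rw [ker_cHom hn, Matrix.GeneralLinearGroup.center_eq_range_scalar] at h2
    obtain ⟨z, hz⟩ := h2
    refine ⟨z, z.ne_zero, ?_⟩
    have h3 : g' = Matrix.GeneralLinearGroup.scalar (Fin n) z * g := by
      rw [hz, inv_mul_cancel_right]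
    rw [h3, Units.val_mul, Matrix.GeneralLinearGroup.coe_scalar]
    ext a b
    simp [Matrix.scalar_apply, Matrix.diagonal_mul]
  · rintro ⟨z, hz, e⟩
    rw [ht, cHom_smul z hz g g' e]

/-- `σ(g) = z g` implies that a scalar multiple of `g` is fixed by `σ` -/
theorem exists_fixed_multiple (hn : 0 < n) (σ : F ≃+* F) (r : ℕ) (hr : orderOf σ = r) (hr0 : 0 < r)
    (g : GL (Fin n) F) (z : F) (e : (g : Mn).map σ = z • (g : Mn)) :
    ∃ μ : F, μ ≠ 0 ∧ (μ • (g : Mn)).map σ = μ • (g : Mn) := by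
  have hσr : σ ^ r = 1 := by rw [← hr]; exact pow_orderOf_eq_one σ
  have h1 : ∀ k, (g : Mn).map (σ ^ k : F ≃+* F) = Nk σ z k • (g : Mn) := by
    intro k
    induction k with
    | zero =>
      ext a b
      simp [Nk]
    | succ k ih =>
      have h2 : (g : Mn).map (σ ^ (k + 1) : F ≃+* F) = ((g : Mn).map (σ ^ k : F ≃+* F)).map σ := by
        ext a b
        exact pow_succ_apply σ k _
      rw [h2, ih]
      have h3 : (Nk σ z k • (g : Mn)).map σ = σ (Nk σ z k) • (g : Mn).map σ := by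
        ext a b
        simp
      rw [h3, e, smul_smul, mul_comm]
      rfl
  have h4 : Nk σ z r = 1 := by
    have h5 := h1 r
    rw [hσr] at h5
    have h6 : (g : Mn).map ((1 : F ≃+* F)) = (g : Mn) := by ext a b; rfl
    rw [h6] at h5
    have h7 := congrArg (· * ((g⁻¹ : GL (Fin n) F) : Mn)) h5
    simp only [smul_mul_assoc, gl_mul_inv] at h7
    have h8 := congrFun (congrFun h7 ⟨0, hn⟩) ⟨0, hn⟩
    simpa using h8.symm
  obtain ⟨μ, hμ, e2⟩ := hilbert90_scalar σ r hr hr0 z h4
  refine ⟨μ, hμ, ?_⟩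
  have h9 : (μ • (g : Mn)).map σ = σ μ • (g : Mn).map σ := by
    ext a b
    simp
  rw [h9, e, smul_smul, mul_comm, e2]

theorem exists_embedding [Fintype F] {p f r : ℕ} [Fact p.Prime] (hF : Fintype.card F = p ^ f)
    (σ : F ≃+* F) (hr : orderOf σ = r) (F₀ : Type*) [Field F₀] [Fintype F₀]
    (hF₀ : Fintype.card F₀ = p ^ (f / r)) :
    ∃ j : F₀ →+* F, ∀ a, σ a = a ↔ a ∈ Set.range j := by
  classical
  let G := Subgroup.zpowers σ
  let K₀ := FixedPoints.subfield G F
  have hmem : ∀ a : F, a ∈ K₀ ↔ σ a = a := by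
    intro a
    constructor
    · intro h
      exact h ⟨σ, Subgroup.mem_zpowers σ⟩
    · rintro h ⟨τ, k, rfl⟩
      show (σ ^ k) a = a
      have h1 : σ ∈ MulAction.stabilizer (F ≃+* F) a := h
      exact (zpow_mem h1 k : σ ^ k ∈ MulAction.stabilizer (F ≃+* F) a)
  have : Finite (F ≃+* F) := Finite.of_injective (fun τ : F ≃+* F => (τ : F → F)) DFunLike.coe_injective
  have : Fintype G := Fintype.ofFinite _
  have hfr : Module.finrank K₀ F = r := by
    have := FixedPoints.finrank_eq_card G F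
    rw [this, ← Nat.card_eq_fintype_card, Nat.card_zpowers, hr]
  have hchar : CharP F p := charP_of_card_eq_prime_pow hF
  have : Fintype K₀ := Fintype.ofFinite _
  have hcharK : CharP K₀ p := by
    exact (RingHom.charP_iff K₀.subtype K₀.subtype.injective p).2 hchar
  obtain ⟨k, -, hk⟩ := FiniteField.card K₀ p
  have h1 := Module.card_eq_pow_finrank (K := K₀) (V := F)
  rw [hfr, hF, hk, ← pow_mul] at h1
  have h2 : f = k * r := Nat.pow_right_injective (Fact.out : p.Prime).two_le h1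
  have hr0 : 0 < r := by rw [← hr]; exact orderOf_pos σ
  have h3 : f / r = k := by rw [h2, Nat.mul_div_cancel _ hr0]
  let e : F₀ ≃+* K₀ := FiniteField.ringEquivOfCardEq (by rw [hF₀, hk, h3])
  refine ⟨K₀.subtype.comp e.toRingHom, fun a => ?_⟩
  rw [← hmem]
  constructor
  · intro ha
    exact ⟨e.symm ⟨a, ha⟩, by simp⟩
  · rintro ⟨b, rfl⟩
    exact (e b).2

section field

variable {F₀ : Type*} [Field F₀]

theorem field_cent_char (hn : 2 ≤ n) (σ : F ≃+* F) (r : ℕ) (hr : orderOf σ = r) (hr0 : 0 < r)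
    (j : F₀ →+* F) (hj : ∀ a, σ a = a ↔ a ∈ Set.range j) (g : GL (Fin n) F) :
    cHom g ∈ Subgroup.centralizer {(fHom σ : AutP)} ↔
      ∃ (μ : Fˣ) (h : GL (Fin n) F₀),
        Matrix.GeneralLinearGroup.scalar (Fin n) μ * g = Matrix.GeneralLinearGroup.map j h := by
  rw [mem_centralizer_iff_of_twist hn _ g _ (fHom_mul_cHom σ g)]
  constructor
  · rintro ⟨z, -, e⟩
    obtain ⟨μ, hμ, e2⟩ := exists_fixed_multiple (by omega) σ r hr hr0 g z e
    have h1 : ∀ a b, ∃ c, j c = μ * (g : Mn) a b := by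
      intro a b
      have := congrFun (congrFun e2 a) b
      exact (hj _).1 this
    choose h hh using h1
    let g₁ : GL (Fin n) F := Matrix.GeneralLinearGroup.scalar (Fin n) (Units.mk0 μ hμ) * g
    have hg₁ : (g₁ : Mn) = (Matrix.of h).map j := by
      ext a b
      simp only [g₁, Units.val_mul, Matrix.GeneralLinearGroup.coe_scalar, Matrix.map_apply,
        Matrix.of_apply, hh]
      simp [Matrix.scalar_apply, Matrix.diagonal_mul]
    have hdet : (Matrix.of h).det ≠ 0 := by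
      intro h0
      have h2 : (g₁ : Mn).det = 0 := by
        rw [hg₁, ← RingHom.mapMatrix_apply, ← RingHom.map_det, h0, map_zero]
      have h3 : IsUnit (g₁ : Mn).det := (Matrix.isUnit_iff_isUnit_det _).1 g₁.isUnit
      rw [h2] at h3
      exact not_isUnit_zero h3
    refine ⟨Units.mk0 μ hμ, Matrix.GeneralLinearGroup.mkOfDetNeZero _ hdet, ?_⟩
    apply Units.ext
    exact hg₁
  · rintro ⟨μ, h, e⟩
    refine ⟨(μ : F) * (σ (μ : F))⁻¹, mul_ne_zero μ.ne_zero (inv_ne_zero ((map_ne_zero σ).2 μ.ne_zero)), ?_⟩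
    have e1 : ∀ a b, (μ : F) * (g : Mn) a b = j ((h : Matrix (Fin n) (Fin n) F₀) a b) := by
      intro a b
      have e0 : ((Matrix.GeneralLinearGroup.scalar (Fin n) μ * g : GL (Fin n) F) : Mn)
          = ((Matrix.GeneralLinearGroup.map j h : GL (Fin n) F) : Mn) := congrArg Units.val e
      have := congrFun (congrFun e0 a) b
      rw [Units.val_mul, Matrix.GeneralLinearGroup.coe_scalar] at this
      simpa [Matrix.scalar_apply, Matrix.diagonal_mul] using this
    ext a b
    have e2 : σ ((μ : F) * (g : Mn) a b) = (μ : F) * (g : Mn) a b := by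
      rw [hj]; exact ⟨_, (e1 a b).symm⟩
    rw [map_mul] at e2
    show σ ((g : Mn) a b) = _
    have h3 : σ (μ : F) ≠ 0 := (map_ne_zero σ).2 μ.ne_zero
    simp only [Matrix.smul_apply, smul_eq_mul]
    field_simp
    linear_combination e2

theorem map_mem_center_iff (hn : 0 < n) (j : F₀ →+* F) (h : GL (Fin n) F₀) :
    Matrix.GeneralLinearGroup.map j h ∈ Subgroup.center (GL (Fin n) F) ↔
      h ∈ Subgroup.center (GL (Fin n) F₀) := by
  rw [Matrix.GeneralLinearGroup.mem_center_iff_val_mem_range_scalar,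
    Matrix.GeneralLinearGroup.mem_center_iff_val_mem_range_scalar]
  constructor
  · rintro ⟨z, hz⟩
    refine ⟨(h : Matrix (Fin n) (Fin n) F₀) ⟨0, hn⟩ ⟨0, hn⟩, ?_⟩
    ext a b
    have e : ∀ a b, (Matrix.scalar (Fin n) z) a b = j ((h : Matrix (Fin n) (Fin n) F₀) a b) :=
      fun a b => congrFun (congrFun hz a) b
    apply j.injective
    rw [← e]
    by_cases hab : a = b
    · subst hab
      simp only [Matrix.scalar_apply, Matrix.diagonal_apply_eq]
      have := e ⟨0, hn⟩ ⟨0, hn⟩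
      simp only [Matrix.scalar_apply, Matrix.diagonal_apply_eq] at this
      exact this.symm
    · simp [Matrix.scalar_apply, Matrix.diagonal_apply_ne _ hab]
  · rintro ⟨w, hw⟩
    refine ⟨j w, ?_⟩
    ext a b
    show _ = j ((h : Matrix (Fin n) (Fin n) F₀) a b)
    rw [← hw]
    by_cases hab : a = b
    · subst hab; simp [Matrix.scalar_apply]
    · simp [Matrix.scalar_apply, Matrix.diagonal_apply_ne _ hab]

theorem field_centralizer_equiv (hn : 2 ≤ n) (σ : F ≃+* F) (r : ℕ) (hr : orderOf σ = r)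
    (hr0 : 0 < r) (j : F₀ →+* F) (hj : ∀ a, σ a = a ↔ a ∈ Set.range j) :
    Nonempty (↥((cHom : GL (Fin n) F →* AutP).range ⊓ Subgroup.centralizer {(fHom σ : AutP)})
      ≃* Matrix.ProjGenLinGroup (Fin n) F₀) := by
  let Ψ : GL (Fin n) F₀ →* AutP := cHom.comp (Matrix.GeneralLinearGroup.map j)
  have hrange : Ψ.range = (cHom : GL (Fin n) F →* AutP).range ⊓ Subgroup.centralizer {(fHom σ : AutP)} := by
    ext y
    constructor
    · rintro ⟨h, rfl⟩
      refine ⟨⟨_, rfl⟩, ?_⟩
      show cHom _ ∈ Subgroup.centralizer _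
      rw [field_cent_char hn σ r hr hr0 j hj]
      exact ⟨1, h, by rw [map_one, one_mul]⟩
    · rintro ⟨⟨g, rfl⟩, hg⟩
      obtain ⟨μ, h, e⟩ := (field_cent_char hn σ r hr hr0 j hj g).1 hg
      refine ⟨h, ?_⟩
      show cHom (Matrix.GeneralLinearGroup.map j h) = cHom g
      rw [← e, map_mul, cHom_eq_one_of_mem_center, one_mul]
      rw [Matrix.GeneralLinearGroup.center_eq_range_scalar]
      exact ⟨μ, rfl⟩
  have hker : Ψ.ker = Subgroup.center (GL (Fin n) F₀) := by
    ext h
    rw [MonoidHom.mem_ker, ← map_mem_center_iff (by omega) j h, ← ker_cHom hn, MonoidHom.mem_ker]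
    rfl
  exact ⟨(((QuotientGroup.quotientMulEquivOfEq hker.symm).trans
    (QuotientGroup.quotientKerEquivRange Ψ)).trans (MulEquiv.subgroupCongr hrange)).symm⟩

theorem field_split_count [Fintype F] [Fintype F₀] (hn : 2 ≤ n) (σ : F ≃+* F) (r : ℕ)
    (hr : orderOf σ = r) (hr0 : 0 < r) (j : F₀ →+* F) (hj : ∀ a, σ a = a ↔ a ∈ Set.range j) :
    Cfsg.splitClassCount (Cfsg.inndiagPSL n F) (Cfsg.Inn (Matrix.ProjectiveSpecialLinearGroup (Fin n) F))
      (fHom σ) = Nat.gcd n ((Fintype.card F - 1) / (Fintype.card F₀ - 1)) := by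
  have : Nonempty (Fin n) := ⟨⟨0, by omega⟩⟩
  rw [split_count hn (fHom σ) (Units.map (j : F₀ →* F)).range]
  · congr 1
    have h1 := Subgroup.card_mul_index (Units.map (j : F₀ →* F)).range
    have hinj : Function.Injective (Units.map (j : F₀ →* F)) := Units.map_injective j.injective
    rw [Nat.card_congr (MonoidHom.ofInjective hinj).symm.toEquiv, Nat.card_units, Nat.card_units,
      Nat.card_eq_fintype_card, Nat.card_eq_fintype_card] at h1
    have h0 : 0 < Fintype.card F₀ - 1 := by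
      have := Fintype.one_lt_card (α := F₀)
      omega
    rw [← h1, Nat.mul_div_cancel_left _ h0]
  · intro g hg
    obtain ⟨μ, h, e⟩ := (field_cent_char hn σ r hr hr0 j hj g).1 hg
    have e1 := congrArg detG e
    rw [map_mul, Matrix.GeneralLinearGroup.det_scalar, Matrix.GeneralLinearGroup.map_det,
      Fintype.card_fin] at e1
    have e2 : detG g = (μ⁻¹) ^ n * Units.map (j : F₀ →* F) (Matrix.GeneralLinearGroup.det h) := by
      rw [← e1, inv_pow, inv_mul_cancel_left]
    rw [e2]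
    exact Subgroup.mul_mem_sup ⟨μ⁻¹, rfl⟩ ⟨_, rfl⟩
  · rintro _ ⟨b, rfl⟩
    obtain ⟨h, rfl⟩ := Matrix.GeneralLinearGroup.det_surjective (n := Fin n) b
    refine ⟨Matrix.GeneralLinearGroup.map j h, ?_, Matrix.GeneralLinearGroup.map_det j h⟩
    rw [field_cent_char hn σ r hr hr0 j hj]
    exact ⟨1, h, by rw [map_one, one_mul]⟩

end field

end Cfsg.Agent.Lib.Helper50Cent
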