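import Mathlib
import Cfsg.Agent.Lib.Helper18GamG
import Cfsg.Agent.Lib.Helper50Cent
import Cfsg.Agent.Lib.Helper50Out

/-!
# Field automorphisms of `PΩ`: reduction to the standard ones; the odd-dimensional case
-/

set_option autoImplicit false
set_option linter.unusedSectionVars false

namespace Cfsg.Agent.Lib.Helper18GamH

open Cfsg Matrix Module
open scoped MatrixGroups
open Cfsg.Agent.Lib.Helper49Orth Cfsg.Agent.Lib.Helper49CD Cfsg.Agent.Lib.Helper49Idx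
  Cfsg.Agent.Lib.Helper51OrthAut Cfsg.Agent.Lib.Helper51OrthKer Cfsg.Agent.Lib.Helper51OrthIdx
  Cfsg.Agent.Lib.Helper51OrthIdx2 Cfsg.Agent.Lib.Helper51OrthIdx3 Cfsg.Agent.Lib.Helper51OrthIdx4
  Cfsg.Agent.Lib.Helper18GamA Cfsg.Agent.Lib.Helper18GamB Cfsg.Agent.Lib.Helper18GamC
  Cfsg.Agent.Lib.Helper18GamE Cfsg.Agent.Lib.Helper18GamF Cfsg.Agent.Lib.Helper18GamG
  Cfsg.Agent.Lib.Helper50Split

variable {F : Type*} [Field F] [Fintype F] {F₀ : Type*} [Field F₀] [Fintype F₀]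
variable {ι : Type} [Fintype ι] [DecidableEq ι]
variable {Q : QuadraticForm F (ι → F)} {Q₀ : QuadraticForm F₀ (ι → F₀)} {j : F₀ →+* F}
variable {σ : F ≃+* F}

theorem normal_map (hsurj : Function.Surjective (sAut ⇑Q)) (D : Subgroup ↥(GO Q))
    (hD : (D.map (inlO ⇑Q)).Normal) : (D.map (cAut ⇑Q)).Normal := by
  have h1 : D.map (cAut ⇑Q) = (D.map (inlO ⇑Q)).map (sAut ⇑Q) := by
    rw [Subgroup.map_map]
    congr 1
  rw [h1]
  exact hD.map _ hsurj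

theorem normal_range (hsurj : Function.Surjective (sAut ⇑Q)) :
    ((⊤ : Subgroup ↥(GO Q)).map (cAut ⇑Q)).Normal := by
  apply normal_map hsurj
  rw [← MonoidHom.range_eq_map, ← ker_prO]
  infer_instance

theorem orderOf_conj {X : Type*} [Group X] (α x : X) : orderOf (α * x * α⁻¹) = orderOf x := by
  have := (MulAut.conj α).orderOf_eq x
  simpa using this

theorem field_main (hQ : (QuadraticMap.polarBilin Q).Nondegenerate)
    (hQ₀ : (QuadraticMap.polarBilin Q₀).Nondegenerate) (hn : 5 ≤ Fintype.card ι)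
    (hσ : Comm ⇑Q σ) (hE : Ext Q Q₀ j) (hj : ∀ a, σ a = a ↔ a ∈ Set.range j)
    (hx₀ : ∃ x, Q₀ x = 1) (D : Subgroup ↥(GO Q)) (D₀ : Subgroup ↥(GO Q₀)) (hZ : ZZ Q ≤ D)
    (hO : Om' Q ≤ D) (hD : ∀ h, mapJ hE h ∈ D ↔ h ∈ D₀) (hDn : (D.map (cAut ⇑Q)).Normal)
    (x α : MulAut (POmega F ⇑Q)) (hα : α * x * α⁻¹ = fA hσ) :
    orderOf x = orderOf σ ∧
    Nonempty (↥(D.map (cAut ⇑Q) ⊓ Subgroup.centralizer {x}) ≃* ↥(D₀.map (cAut ⇑Q₀))) ∧
    splitClassCount (D.map (cAut ⇑Q)) (Inn (POmega F ⇑Q)) x =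
      ((Om' Q ⊔ ZZ Q) ⊔ D₀.map (mapJ hE)).relIndex D := by
  refine ⟨?_, ?_, ?_⟩
  · rw [← orderOf_fA hQ hn hσ, ← hα, orderOf_conj]
  · obtain ⟨e1⟩ := centralizer_conj_equiv (D.map (cAut ⇑Q)) α x
    rw [hα] at e1
    obtain ⟨e2⟩ := cent_equiv hQ hQ₀ hn hσ hE hj hx₀ D D₀ hZ hD
    exact ⟨e1.trans e2⟩
  · rw [← splitClassCount_conj _ _ α x, hα]
    exact split_eq hQ hn hσ hE hj hx₀ D D₀ hZ hO hD

theorem index_eq_one_of_two {X : Type*} [Group X] {K L : Subgroup X} (hK : K.index = 2)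
    (hKL : K ≤ L) {s : X} (hs : s ∈ L) (hs' : s ∉ K) : L.index = 1 := by
  have h1 := Subgroup.relIndex_mul_index hKL
  rw [hK] at h1
  have h2 : K.relIndex L ≠ 1 := by
    intro h
    exact hs' (Subgroup.relIndex_eq_one.1 h hs)
  have h3 : K.relIndex L ∣ 2 := ⟨_, h1.symm⟩
  rcases (Nat.dvd_prime Nat.prime_two).1 h3 with h | h
  · exact absurd h h2
  · rw [h] at h1
    omega

section OddDim

variable {m : ℕ} (hm : Fintype.card ι = 2 * m + 1)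

include hm in
theorem odd_index_two (hQ : (QuadraticMap.polarBilin Q).Nondegenerate)
    (hQ₀ : (QuadraticMap.polarBilin Q₀).Nondegenerate) (hE : Ext Q Q₀ j)
    (hx : ∃ x, Q x = 1) (hx₀ : ∃ x, Q₀ x = 1) (h2 : (2 : F) ≠ 0) (h2' : (2 : F₀) ≠ 0)
    (hcard : 2 ≤ Fintype.card ι) (hsq : ∀ c : F₀, IsSquare (j c)) :
    ((Om' Q ⊔ ZZ Q) ⊔ (⊤ : Subgroup ↥(GO Q₀)).map (mapJ hE)).relIndex ⊤ = 2 := by
  have h1 : (⊤ : Subgroup ↥(GO Q₀)).map (mapJ hE) ≤ Om' Q ⊔ ZZ Q := by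
    rw [← sup_eq_top_odd Q₀ hQ₀ hx₀ hm, Subgroup.map_sup]
    apply sup_le_sup (mapJ_SO_le hE h2 h2' hQ₀ hsq)
    rintro _ ⟨z, hz, rfl⟩
    obtain ⟨c, rfl⟩ := exists_scal Q₀ hz
    rw [mapJ_scal]
    exact scal_mem Q _
  rw [sup_eq_left.2 h1, Subgroup.relIndex_top_right, index_K0_odd Q hQ hx hm h2 hcard]

include hm in
theorem odd_index_one (hQ : (QuadraticMap.polarBilin Q).Nondegenerate)
    (hQ₀ : (QuadraticMap.polarBilin Q₀).Nondegenerate) (hE : Ext Q Q₀ j)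
    (hx : ∃ x, Q x = 1) (h2 : (2 : F) ≠ 0) (h2' : (2 : F₀) ≠ 0)
    (hcard : 2 ≤ Fintype.card ι) {c : F₀} (hc : ¬ IsSquare (j c)) :
    ((Om' Q ⊔ ZZ Q) ⊔ (⊤ : Subgroup ↥(GO Q₀)).map (mapJ hE)).relIndex ⊤ = 1 := by
  obtain ⟨s, -, hs1, hs2⟩ := exists_SO_not_mem hE h2 h2' hQ₀ hcard hc
  rw [Subgroup.relIndex_top_right]
  apply index_eq_one_of_two (index_K0_odd Q hQ hx hm h2 hcard) le_sup_left
    (s := mapJ hE s) (Subgroup.mem_sup_right (Subgroup.mem_map_of_mem _ (Subgroup.mem_top s)))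
  intro h
  apply hs2
  rw [← K0_inf_SO'_odd Q hx hm]
  exact ⟨h, hs1⟩

end OddDim

end Cfsg.Agent.Lib.Helper18GamH
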