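import Mathlib
import Cfsg.Agent.Lib.Helper18GamH

/-!
# Transport along isomorphisms and isometries
-/

set_option autoImplicit false
set_option linter.unusedSectionVars false

namespace Cfsg.Agent.Lib.Helper18GamI

open Cfsg Matrix Module
open scoped MatrixGroups
open Cfsg.Agent.Lib.Helper49Orth
  Cfsg.Agent.Lib.Helper51OrthAut Cfsg.Agent.Lib.Helper51OrthIdx
  Cfsg.Agent.Lib.Helper50Split

section generic

variable {X Y : Type*} [Group X] [Group Y]

theorem isConjUnder_map (Θ : X ≃* Y) (H : Subgroup X) (x y : X) :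
    IsConjUnder H x y ↔ IsConjUnder (H.map Θ.toMonoidHom) (Θ x) (Θ y) := by
  constructor
  · rintro ⟨h, hh, rfl⟩
    exact ⟨Θ h, ⟨h, hh, rfl⟩, by simp⟩
  · rintro ⟨_, ⟨h, hh, rfl⟩, e⟩
    refine ⟨h, hh, Θ.injective ?_⟩
    rw [e]
    simp

theorem splitClassCount_map (Θ : X ≃* Y) (H K : Subgroup X) (x : X) :
    splitClassCount (H.map Θ.toMonoidHom) (K.map Θ.toMonoidHom) (Θ x) = splitClassCount H K x := by
  unfold splitClassCount
  symm
  apply Nat.card_congr
  refine Quot.congr (Θ.toEquiv.subtypeEquiv (fun y => ?_)) ?_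
  · exact isConjUnder_map Θ H x y
  · intro a b
    exact isConjUnder_map Θ K a.1 b.1

theorem centralizer_map_equiv (Θ : X ≃* Y) (H : Subgroup X) (x : X) :
    Nonempty (↥(H ⊓ Subgroup.centralizer {x}) ≃*
      ↥(H.map Θ.toMonoidHom ⊓ Subgroup.centralizer {Θ x})) := by
  have h : (H ⊓ Subgroup.centralizer {x}).map Θ.toMonoidHom
      = H.map Θ.toMonoidHom ⊓ Subgroup.centralizer {Θ x} := by
    ext y
    simp only [Subgroup.mem_map, Subgroup.mem_inf, Subgroup.mem_centralizer_singleton_iff]
    constructor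
    · rintro ⟨c, ⟨hc1, hc2⟩, rfl⟩
      refine ⟨⟨c, hc1, rfl⟩, ?_⟩
      change Θ c * Θ x = Θ x * Θ c
      rw [← map_mul, ← map_mul, hc2]
    · rintro ⟨⟨c, hc1, rfl⟩, hc2⟩
      refine ⟨c, ⟨hc1, Θ.injective ?_⟩, rfl⟩
      rw [map_mul, map_mul]
      exact hc2
  exact ⟨(Θ.subgroupMap _).trans (MulEquiv.subgroupCongr h)⟩

theorem map_Inn {T T' : Type*} [Group T] [Group T'] (ψ : T ≃* T') :
    (Inn T).map (MulAut.congr ψ).toMonoidHom = Inn T' := by
  ext β
  constructor
  · rintro ⟨_, ⟨t, rfl⟩, rfl⟩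
    refine ⟨ψ t, ?_⟩
    ext y
    change ψ t * y * (ψ t)⁻¹ = ψ (t * ψ.symm y * t⁻¹)
    simp
  · rintro ⟨t, rfl⟩
    refine ⟨MulAut.conj (ψ.symm t), ⟨_, rfl⟩, ?_⟩
    ext y
    change ψ (ψ.symm t * ψ.symm y * (ψ.symm t)⁻¹) = t * y * t⁻¹
    simp

/-- Isomorphic groups have isomorphic commutator subgroups. -/
def commEquiv {A B : Type*} [Group A] [Group B] (e : A ≃* B) :
    ↥(commutator A) ≃* ↥(commutator B) :=
  (e.subgroupMap (commutator A)).trans (MulEquiv.subgroupCongr (by
    unfold commutator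
    rw [Subgroup.map_commutator]
    have : (⊤ : Subgroup A).map (e : A →* B) = ⊤ :=
      Subgroup.map_top_of_surjective _ e.surjective
    rw [this]))

theorem coe_commEquiv {A B : Type*} [Group A] [Group B] (e : A ≃* B) (x : ↥(commutator A)) :
    ((commEquiv e x : ↥(commutator B)) : B) = e x := rfl

/-- Isomorphic groups have isomorphic central quotients. -/
def centerQuot {A B : Type*} [Group A] [Group B] (e : A ≃* B) :
    A ⧸ Subgroup.center A ≃* B ⧸ Subgroup.center B :=
  QuotientGroup.congr _ _ e (by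
    ext y
    constructor
    · rintro ⟨x, hx, rfl⟩
      rw [Subgroup.mem_center_iff]
      intro z
      obtain ⟨w, rfl⟩ := e.surjective z
      change e w * e x = e x * e w
      rw [← map_mul, ← map_mul, Subgroup.mem_center_iff.1 hx w]
    · intro hy
      refine ⟨e.symm y, ?_, by simp⟩
      rw [SetLike.mem_coe, Subgroup.mem_center_iff]
      intro w
      apply e.injective
      rw [map_mul, map_mul, e.apply_symm_apply]
      exact Subgroup.mem_center_iff.1 hy (e w))

theorem centerQuot_mk {A B : Type*} [Group A] [Group B] (e : A ≃* B) (x : A) :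
    centerQuot e (QuotientGroup.mk x) = QuotientGroup.mk (e x) := rfl

theorem congr_eq_of_comm {T T' : Type*} [Group T] [Group T'] (ψ : T ≃* T') (β : MulAut T)
    (β' : MulAut T') (h : ∀ y, ψ (β y) = β' (ψ y)) : MulAut.congr ψ β = β' := by
  ext y
  change ψ (β (ψ.symm y)) = β' y
  rw [h, ψ.apply_symm_apply]

end generic

section iso

variable {ι : Type} [Fintype ι] [DecidableEq ι] {F : Type*} [Field F]
variable {q q' : (ι → F) → F} {g₀ : GL ι F}

/-- `g₀` is an isometry from `q'` to `q`. -/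
def IsIso (q q' : (ι → F) → F) (g₀ : GL ι F) : Prop :=
  ∀ v, q ((g₀ : Matrix ι ι F) *ᵥ v) = q' v

theorem IsIso.inv (h : IsIso q q' g₀) : IsIso q' q g₀⁻¹ := by
  intro v
  rw [← h, Matrix.mulVec_mulVec, ← Units.val_mul, mul_inv_cancel, Units.val_one, Matrix.one_mulVec]

theorem IsIso.conj_sim (h : IsIso q q' g₀) {s : GL ι F} {c : F}
    (hs : ∀ v, q' ((s : Matrix ι ι F) *ᵥ v) = c * q' v) (v : ι → F) :
    q (((g₀ * s * g₀⁻¹ : GL ι F) : Matrix ι ι F) *ᵥ v) = c * q v := by
  rw [Units.val_mul, Units.val_mul, ← Matrix.mulVec_mulVec, ← Matrix.mulVec_mulVec, h, hs, h.inv]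

/-- Conjugation by an isometry, on conformal groups. -/
def cg (h : IsIso q q' g₀) : ↥(Geo.quadSimilarityGroup (F := F) q') →*
    ↥(Geo.quadSimilarityGroup (F := F) q) where
  toFun s := ⟨g₀ * s * g₀⁻¹, by
    obtain ⟨c, hc⟩ := s.2
    exact ⟨c, h.conj_sim hc⟩⟩
  map_one' := by
    apply Subtype.ext
    simp
  map_mul' a b := by
    apply Subtype.ext
    simp only [Subgroup.coe_mul]
    group

theorem coe_cg (h : IsIso q q' g₀) (s : ↥(Geo.quadSimilarityGroup (F := F) q')) :
    ((cg h s : ↥(Geo.quadSimilarityGroup (F := F) q)) : GL ι F) = g₀ * s * g₀⁻¹ := rfl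

theorem cg_surjective (h : IsIso q q' g₀) : Function.Surjective (cg h) := by
  intro s
  refine ⟨cg h.inv s, ?_⟩
  apply Subtype.ext
  rw [coe_cg, coe_cg]
  group

/-- Conjugation by an isometry, on isometry groups. -/
def isoO (h : IsIso q q' g₀) : ↥(isometryGroup F q') ≃* ↥(isometryGroup F q) where
  toFun s := ⟨g₀ * s * g₀⁻¹, by
    rw [mem_iso]
    intro v
    have := h.conj_sim (s := (s : GL ι F)) (c := 1) (fun v => by
      rw [iso_apply (Q := q'), one_mul]) v
    rwa [one_mul] at this⟩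
  invFun s := ⟨g₀⁻¹ * s * g₀, by
    rw [mem_iso]
    intro v
    have := h.inv.conj_sim (s := (s : GL ι F)) (c := 1) (fun v => by
      rw [iso_apply (Q := q), one_mul]) v
    rwa [one_mul, inv_inv] at this⟩
  left_inv s := by
    apply Subtype.ext
    simp only
    group
  right_inv s := by
    apply Subtype.ext
    simp only
    group
  map_mul' a b := by
    apply Subtype.ext
    simp only [Subgroup.coe_mul]
    group

theorem coe_isoO (h : IsIso q q' g₀) (s : ↥(isometryGroup F q')) :
    ((isoO h s : ↥(isometryGroup F q)) : GL ι F) = g₀ * s * g₀⁻¹ := rfl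

/-- The isomorphism of `PΩ`'s induced by an isometry. -/
def psi0 (h : IsIso q q' g₀) : POmega F q' ≃* POmega F q := centerQuot (commEquiv (isoO h))

theorem psi0_mk (h : IsIso q q' g₀) (s : ↥(Omega F q')) :
    psi0 h (QuotientGroup.mk s) = QuotientGroup.mk (commEquiv (isoO h) s) := rfl

theorem congr_cAut (h : IsIso q q' g₀) (s : ↥(Geo.quadSimilarityGroup (F := F) q')) :
    MulAut.congr (psi0 h) (cAut q' s) = cAut q (cg h s) := by
  apply congr_eq_of_comm
  intro y
  induction y using QuotientGroup.induction_on with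
  | H w =>
    obtain ⟨w', hw'⟩ := exists_conj q' s w
    rw [cAut_mk q' s w w' hw', psi0_mk, psi0_mk]
    symm
    apply cAut_mk
    rw [coe_commEquiv, coe_commEquiv, coe_isoO, coe_isoO, hw', coe_cg]
    group

/-- Transport of a normal subgroup of `Aut(PΩ)` induced by similarities along an arbitrary
isomorphism. -/
theorem map_congr_eq (h : IsIso q q' g₀) (D : Subgroup ↥(Geo.quadSimilarityGroup (F := F) q))
    (D' : Subgroup ↥(Geo.quadSimilarityGroup (F := F) q')) (hD : D'.map (cg h) = D)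
    (hn : (D.map (cAut q)).Normal) (ψ : POmega F q ≃* POmega F q') :
    (D.map (cAut q)).map (MulAut.congr ψ).toMonoidHom = D'.map (cAut q') := by
  have h1 : (D'.map (cAut q')).map (MulAut.congr (psi0 h)).toMonoidHom = D.map (cAut q) := by
    rw [← hD, Subgroup.map_map, Subgroup.map_map]
    congr 1
    ext1 s
    exact congr_cAut h s
  have h2 : ((D.map (cAut q)).map (MulAut.congr ψ).toMonoidHom).map
      (MulAut.congr (psi0 h)).toMonoidHom = D.map (cAut q) := by
    rw [Subgroup.map_map]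
    have h3 : (MulAut.congr (psi0 h)).toMonoidHom.comp (MulAut.congr ψ).toMonoidHom
        = (MulAut.conj (ψ.trans (psi0 h) : MulAut (POmega F q))).toMonoidHom := by
      ext1 β
      ext y
      rfl
    rw [h3]
    exact Subgroup.Normal.map_conj_eq (D.map (cAut q)) _
  have hinj : Function.Injective (MulAut.congr (psi0 h)).toMonoidHom :=
    (MulAut.congr (psi0 h)).injective
  apply Subgroup.map_injective hinj
  exact h2.trans h1.symm

end iso

end Cfsg.Agent.Lib.Helper18GamI
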