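import Mathlib
import Cfsg.Agent.Lib.Helper18GamI

/-!
# Even dimension, odd characteristic: the proper similitudes under semisimilarities and
extension of scalars
-/

set_option autoImplicit false
set_option linter.unusedSectionVars false

namespace Cfsg.Agent.Lib.Helper18GamJ

open Cfsg Matrix Module
open scoped MatrixGroups
open Cfsg.Agent.Lib.Helper49Orth Cfsg.Agent.Lib.Helper49CD Cfsg.Agent.Lib.Helper49Idx
  Cfsg.Agent.Lib.Helper51OrthAut Cfsg.Agent.Lib.Helper51OrthKer Cfsg.Agent.Lib.Helper51OrthIdx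
  Cfsg.Agent.Lib.Helper51OrthIdx2 Cfsg.Agent.Lib.Helper51OrthIdx3 Cfsg.Agent.Lib.Helper51OrthIdx4
  Cfsg.Agent.Lib.Helper51OrthDiag
  Cfsg.Agent.Lib.Helper18GamA Cfsg.Agent.Lib.Helper18GamB Cfsg.Agent.Lib.Helper18GamC
  Cfsg.Agent.Lib.Helper18GamE Cfsg.Agent.Lib.Helper18GamF Cfsg.Agent.Lib.Helper18GamG
  Cfsg.Agent.Lib.Helper18GamH Cfsg.Agent.Lib.Helper18GamI

section A

variable {F : Type*} [Field F] {ι : Type} [Fintype ι] [DecidableEq ι]

theorem conj_inl (x : GamL ι F) (g : GL ι F) :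
    x * SemidirectProduct.inl g * x⁻¹ = SemidirectProduct.inl (cj x g) := by
  apply SemidirectProduct.ext
  · simp only [SemidirectProduct.mul_left, SemidirectProduct.left_inl, SemidirectProduct.mul_right,
      SemidirectProduct.right_inl, mul_one, SemidirectProduct.inv_left, cj_apply]
    congr 1
    rw [← MulAut.mul_apply, ← map_mul, mul_inv_cancel, map_one, MulAut.one_apply]
  · simp

theorem det_mapAut (σ : F ≃+* F) (g : GL ι F) :
    Matrix.GeneralLinearGroup.det (mapAut σ g) =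
      Units.map (σ : F →* F) (Matrix.GeneralLinearGroup.det g) := by
  apply Units.ext
  rw [Matrix.GeneralLinearGroup.val_det_apply, coe_mapAut, Units.coe_map,
    Matrix.GeneralLinearGroup.val_det_apply]
  exact ((σ : F →+* F).map_det _).symm

theorem det_cj (x : GamL ι F) (g : GL ι F) :
    Matrix.GeneralLinearGroup.det (cj x g) =
      Units.map (x.right : F →* F) (Matrix.GeneralLinearGroup.det g) := by
  rw [cj_apply, map_mul, map_mul, map_inv, mul_comm, inv_mul_cancel_left, det_mapAut]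

variable (Q : QuadraticForm F (ι → F))

/-- Conjugates of similarities by semisimilarities. -/
theorem exists_conj_inlO (y : ↥(GamO ⇑Q)) (g : ↥(GO Q)) :
    ∃ g' : ↥(GO Q), inlO ⇑Q g' = y * inlO ⇑Q g * y⁻¹ ∧
      (g' : GL ι F) = cj (y : GamL ι F) (g : GL ι F) := by
  have h1 : y * inlO ⇑Q g * y⁻¹ ∈ (inlO ⇑Q).range := by
    rw [← ker_prO]
    apply Subgroup.Normal.conj_mem inferInstance
    rw [ker_prO]
    exact ⟨g, rfl⟩
  obtain ⟨g', hg'⟩ := h1
  refine ⟨g', hg', ?_⟩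
  have h2 := congrArg (fun z : ↥(GamO ⇑Q) => (z : GamL ι F)) hg'
  simp only [Subgroup.coe_mul, Subgroup.coe_inv, coe_inlO, conj_inl] at h2
  exact SemidirectProduct.inl_injective h2

theorem mu_conj (hx : ∃ x, Q x = 1) (y : ↥(GamO ⇑Q)) (g g' : ↥(GO Q))
    (h : (g' : GL ι F) = cj (y : GamL ι F) (g : GL ι F)) :
    mu Q hx g' = Units.map ((y : GamL ι F).right : F →* F) (mu Q hx g) := by
  apply mu_eq
  intro v
  obtain ⟨c, hc⟩ := (mem_GamO' ⇑Q).1 y.2
  rw [h, ← act_act_inv (y : GamL ι F) v, cj_act, hc, hc, mu_spec Q hx, map_mul, Units.coe_map]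
  change _ = (y : GamL ι F).right _ * _
  ring

theorem delta_conj (hx : ∃ x, Q x = 1) (n : ℕ) (y : ↥(GamO ⇑Q)) (g g' : ↥(GO Q))
    (h : (g' : GL ι F) = cj (y : GamL ι F) (g : GL ι F)) :
    delta Q hx n g' = Units.map ((y : GamL ι F).right : F →* F) (delta Q hx n g) := by
  rw [delta_apply, delta_apply, mu_conj Q hx y g g' h, h, det_cj, map_mul, map_pow, map_inv]

theorem normal_ker_delta (hx : ∃ x, Q x = 1) (n : ℕ) :
    ((delta Q hx n).ker.map (inlO ⇑Q)).Normal := by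
  refine ⟨?_⟩
  rintro _ ⟨g, hg, rfl⟩ y
  obtain ⟨g', h1, h2⟩ := exists_conj_inlO Q y g
  refine ⟨g', ?_, h1⟩
  rw [SetLike.mem_coe, MonoidHom.mem_ker, delta_conj Q hx n y g g' h2, MonoidHom.mem_ker.1 hg,
    map_one]

end A

variable {F : Type*} [Field F] [Fintype F] {F₀ : Type*} [Field F₀] [Fintype F₀]
variable {ι : Type} [Fintype ι] [DecidableEq ι]
variable {Q : QuadraticForm F (ι → F)} {Q₀ : QuadraticForm F₀ (ι → F₀)} {j : F₀ →+* F}

theorem mapJ_mem_ker_delta (hE : Ext Q Q₀ j) (hx : ∃ x, Q x = 1) (hx₀ : ∃ x, Q₀ x = 1) (n : ℕ)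
    (h : ↥(GO Q₀)) : mapJ hE h ∈ (delta Q hx n).ker ↔ h ∈ (delta Q₀ hx₀ n).ker := by
  rw [MonoidHom.mem_ker, MonoidHom.mem_ker, delta_mapJ hE hx hx₀]
  constructor
  · intro h1
    apply Units.map_injective (f := (j : F₀ →* F)) j.injective
    rw [h1, map_one]
  · intro h1
    rw [h1, map_one]

/-- A proper similitude with prescribed multiplier. -/
theorem exists_mu_eq' (G : Good Q) {n : ℕ} (hn : Fintype.card ι = 2 * n) (c : Fˣ) :
    ∃ g : ↥(GO Q), mu Q G.exists_one g = c ∧ delta Q G.exists_one n g = 1 := by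
  obtain ⟨g, hg⟩ := exists_mu_eq Q G hn c
  rcases delta_cases Q G.nondeg G.exists_one hn g with h | h
  · exact ⟨g, hg, h⟩
  · obtain ⟨x, hx⟩ := G.exists_one
    have hx0 : Q x ≠ 0 := by rw [hx]; exact one_ne_zero
    refine ⟨g * incO Q (reflO Q hx0), ?_, ?_⟩
    · rw [map_mul, mu_incO, mul_one, hg]
    · rw [map_mul, delta_incO, detO_reflO, h]
      simp

theorem SO'_le (hE : Ext Q Q₀ j) (G : Good Q) (G₀ : Good Q₀) {c : F₀} (hc : ¬ IsSquare (j c)) :
    SO' Q ≤ Om' Q ⊔ (SO' Q₀).map (mapJ hE) := by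
  obtain ⟨s, hs, hs1, hs2⟩ := exists_SO_not_mem hE G.two G₀.two G₀.nondeg (two_le_card Q G) hc
  intro g hg
  by_cases hgO : g ∈ Om' Q
  · exact Subgroup.mem_sup_left hgO
  have h1 : g = (g * (mapJ hE s)⁻¹) * mapJ hE s := by rw [inv_mul_cancel_right]
  rw [h1]
  apply Subgroup.mul_mem_sup _ (Subgroup.mem_map_of_mem _ hs)
  rw [SO'_eq] at hg hs1
  obtain ⟨y, hy, rfl⟩ := hg
  obtain ⟨z, hz, hzz⟩ := hs1
  rw [← hzz] at hs2 ⊢
  rw [incO_mem_Om'] at hgO hs2
  rw [← map_inv, ← map_mul, incO_mem_Om']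
  have hy' : detO Q y = 1 := hy
  have hz' : detO Q z = 1 := hz
  rw [mem_Omega_iff Q G.two G.nondeg _ hy'] at hgO
  rw [mem_Omega_iff Q G.two G.nondeg _ hz'] at hs2
  rw [mem_Omega_iff Q G.two G.nondeg _ (by rw [map_mul, map_inv, hy', hz']; simp), map_mul, map_inv]
  rcases Int.units_eq_one_or (chi Q 1 y) with h | h
  · exact absurd h hgO
  rcases Int.units_eq_one_or (chi Q 1 z) with h' | h'
  · exact absurd h' hs2
  rw [h, h']
  rfl

theorem DD_le (hE : Ext Q Q₀ j) (G : Good Q) (G₀ : Good Q₀) {n : ℕ}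
    (hn : Fintype.card ι = 2 * n) {c : F₀} (hc : ¬ IsSquare (j c)) :
    DD Q G n ≤ (Om' Q ⊔ ZZ Q) ⊔ (DD Q₀ G₀ n).map (mapJ hE) := by
  intro g hg
  have hg' : delta Q G.exists_one n g = 1 := hg
  have hc0 : c ≠ 0 := by
    rintro rfl
    rw [map_zero] at hc
    exact hc IsSquare.zero
  -- the multiplier is a square times an element of the small field
  obtain ⟨c₀, d, hcd⟩ : ∃ (c₀ : F₀ˣ) (d : Fˣ),
      mu Q G.exists_one g = Units.map (j : F₀ →* F) c₀ * (d * d) := by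
    by_cases hsq : IsSquare ((mu Q G.exists_one g : Fˣ) : F)
    · obtain ⟨d, hd⟩ := hsq
      have hd0 : d ≠ 0 := by
        rintro rfl
        rw [mul_zero] at hd
        exact (mu Q G.exists_one g).ne_zero hd
      exact ⟨1, Units.mk0 d hd0, by rw [map_one, one_mul]; exact Units.ext hd⟩
    · obtain ⟨e, he⟩ := isSquare_mul_of_not hsq hc
      have hjc : j c ≠ 0 := (map_ne_zero j).2 hc0
      have he0 : e ≠ 0 := by
        rintro rfl
        rw [mul_zero] at he
        exact (mul_ne_zero (mu Q G.exists_one g).ne_zero hjc) he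
      refine ⟨Units.mk0 c hc0, Units.mk0 (e / j c) (div_ne_zero he0 hjc), ?_⟩
      apply Units.ext
      simp only [Units.val_mul, Units.coe_map, Units.val_mk0]
      change _ = j c * _
      field_simp
      linear_combination he
  obtain ⟨h₀, hh1, hh2⟩ := exists_mu_eq' G₀ hn c₀
  have h1 : g = (g * (mapJ hE h₀)⁻¹ * (scal Q d)⁻¹) * scal Q d * mapJ hE h₀ := by
    rw [inv_mul_cancel_right, inv_mul_cancel_right]
  have h2 : g * (mapJ hE h₀)⁻¹ * (scal Q d)⁻¹ ∈ SO' Q := by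
    rw [mem_SO'_iff Q G.exists_one n]
    constructor
    · rw [map_mul, map_mul, map_inv, map_inv, mu_scal, mu_mapJ hE G.exists_one G₀.exists_one, hh1, hcd,
        mul_comm (Units.map (j : F₀ →* F) c₀), mul_inv_cancel_right, mul_inv_cancel]
    · rw [map_mul, map_mul, map_inv, map_inv, delta_scal Q _ hn,
        delta_mapJ hE G.exists_one G₀.exists_one, hh2, hg']
      simp
  have h3 := SO'_le hE G G₀ hc h2
  have h4 : Om' Q ⊔ (SO' Q₀).map (mapJ hE) ≤ (Om' Q ⊔ ZZ Q) ⊔ (DD Q₀ G₀ n).map (mapJ hE) := by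
    apply sup_le_sup le_sup_left
    apply Subgroup.map_mono
    intro s hs
    exact ((mem_SO'_iff Q₀ G₀.exists_one n s).1 hs).2
  rw [h1]
  apply mul_mem (mul_mem (h4 h3) _)
  · exact Subgroup.mem_sup_right (Subgroup.mem_map_of_mem _ hh2)
  · exact Subgroup.mem_sup_left (Subgroup.mem_sup_right (scal_mem Q d))

end Cfsg.Agent.Lib.Helper18GamJ
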