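import Mathlib
import Cfsg.Agent.Lib.Helper51OrthPar

set_option autoImplicit false
set_option linter.unusedSectionVars false
set_option linter.unusedSimpArgs false

namespace Cfsg.Agent.Lib.Helper51OrthExt

open Cfsg Matrix Module
open scoped MatrixGroups
open Cfsg.Agent.Lib.Helper49Orth Cfsg.Agent.Lib.Helper49Forms Cfsg.Agent.Lib.Helper49All
open Cfsg.Agent.Lib.Helper49Idx Cfsg.Agent.Lib.Helper49Gram Cfsg.Agent.Lib.Helper49CD
open Cfsg.Agent.Lib.Helper49Fam
open Cfsg.Agent.Lib.Helper18Hyp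
open Cfsg.Agent.Lib.Helper51OrthAut Cfsg.Agent.Lib.Helper51OrthKer Cfsg.Agent.Lib.Helper51Abs
open Cfsg.Agent.Lib.Helper51OrthIdx Cfsg.Agent.Lib.Helper51OrthIdx2 Cfsg.Agent.Lib.Helper51OrthIdx3
open Cfsg.Agent.Lib.Helper51OrthIdx4 Cfsg.Agent.Lib.Helper51OrthPar

variable {ι : Type} [Fintype ι] [DecidableEq ι] {F : Type*} [Field F]

theorem sim_gram (Q : QuadraticForm F (ι → F)) (M : Matrix ι ι F) (c : F)
    (h : ∀ v, Q (M *ᵥ v) = c * Q v) : Mᵀ * Helper49Gram.gram Q * M = c • Helper49Gram.gram Q := by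
  have h1 := gram_family Q (fun k => M *ᵥ Pi.single k 1)
  have h2 : Matrix.of (fun k l : ι => QuadraticMap.polar ⇑Q (M *ᵥ Pi.single k 1) (M *ᵥ Pi.single l 1))
      = c • Helper49Gram.gram Q := by
    ext k l
    simp only [Matrix.of_apply, Matrix.smul_apply, Helper49Gram.gram, smul_eq_mul, QuadraticMap.polar]
    rw [← Matrix.mulVec_add, h, h, h]
    ring
  have h3 : Matrix.of (fun i k => (M *ᵥ Pi.single k (1 : F)) i) = M := by
    ext i k
    simp
  rw [h2, h3] at h1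
  exact h1.symm

theorem sim_of_gram (Q : QuadraticForm F (ι → F)) (h2 : (2 : F) ≠ 0) (M : Matrix ι ι F) (c : F)
    (h : Mᵀ * Helper49Gram.gram Q * M = c • Helper49Gram.gram Q) (v : ι → F) :
    Q (M *ᵥ v) = c * Q v := by
  have e1 : QuadraticMap.polar ⇑Q (M *ᵥ v) (M *ᵥ v) = c * QuadraticMap.polar ⇑Q v v := by
    rw [polar_eq, polar_eq, Matrix.mulVec_mulVec, ← Matrix.vecMul_transpose, ← Matrix.dotProduct_mulVec,
      Matrix.mulVec_mulVec, ← Matrix.mul_assoc, h, Matrix.smul_mulVec, dotProduct_smul, smul_eq_mul]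
  rw [QuadraticMap.polar_self, QuadraticMap.polar_self] at e1
  simp only [nsmul_eq_mul, Nat.cast_ofNat] at e1
  apply mul_left_cancel₀ h2
  linear_combination e1

theorem sim_map {K : Type*} [Field K] (f : F →+* K) (Q₁ : QuadraticForm F (ι → F))
    (Q₂ : QuadraticForm K (ι → K)) (hgram : Helper49Gram.gram Q₂ = (Helper49Gram.gram Q₁).map f)
    (h2 : (2 : K) ≠ 0) (M : Matrix ι ι F) (c : F) (h : ∀ v, Q₁ (M *ᵥ v) = c * Q₁ v) (v : ι → K) :
    Q₂ (M.map f *ᵥ v) = f c * Q₂ v := by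
  apply sim_of_gram Q₂ h2
  have h1 := congrArg (fun A : Matrix ι ι F => A.map f) (sim_gram Q₁ M c h)
  simp only [Matrix.map_mul, Matrix.transpose_map] at h1
  rw [hgram, h1]
  ext i j
  simp

theorem preserves_ext {K : Type*} [Field K] [Fintype K] (f : F →+* K)
    (Q₁ : QuadraticForm F (ι → F)) (Q₂ : QuadraticForm K (ι → K))
    (hgram : Helper49Gram.gram Q₂ = (Helper49Gram.gram Q₁).map f) (h2 : (2 : K) ≠ 0)
    (hnd : (QuadraticMap.polarBilin Q₂).Nondegenerate) {n : ℕ} (hcard : Fintype.card ι = 2 * n)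
    (hsq : ∀ x : F, IsSquare (f x)) {X0 : Submodule K (ι → K)} (hX0 : TS Q₂ X0)
    (hX0n : finrank K X0 = n) (hx : ∃ x, Q₁ x = 1) (g : ↥(GO Q₁)) :
    PreservesSingularClasses ⇑Q₂ (((g : GL ι F) : Matrix ι ι F).map f) ↔ delta Q₁ hx n g = 1 := by
  have hdim : finrank K (ι → K) = 2 * n := by rw [Module.finrank_fintype_fun_eq_card, hcard]
  obtain ⟨l, hl⟩ := hsq (mu Q₁ hx g : F)
  have hμ0 : f (mu Q₁ hx g : F) ≠ 0 := by
    rw [Ne, map_eq_zero]
    exact (mu Q₁ hx g).ne_zero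
  have hl0 : l ≠ 0 := by
    rintro rfl
    rw [mul_zero] at hl
    exact hμ0 hl
  have hM := sim_map f Q₁ Q₂ hgram h2 _ _ (mu_spec Q₁ hx g)
  have hH : ∀ v, Q₂ ((l⁻¹ • ((g : GL ι F) : Matrix ι ι F).map f) *ᵥ v) = Q₂ v := by
    intro v
    rw [Matrix.smul_mulVec, QuadraticMap.map_smul, hM, hl, smul_eq_mul]
    field_simp
  have hdet : (l⁻¹ • ((g : GL ι F) : Matrix ι ι F).map f).det = f (delta Q₁ hx n g : F) := by
    rw [Matrix.det_smul, hcard, delta_apply, Units.val_mul, Units.val_pow_eq_pow_val,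
      Units.val_inv_eq_inv_val, map_mul, map_pow, map_inv₀, hl,
      Matrix.GeneralLinearGroup.val_det_apply, RingHom.map_det, RingHom.mapMatrix_apply, pow_mul,
      mul_comm]
    congr 1
    rw [pow_two, mul_inv]
  have hdet0 : (l⁻¹ • ((g : GL ι F) : Matrix ι ι F).map f).det ≠ 0 := by
    rw [hdet, Ne, map_eq_zero]
    exact (delta Q₁ hx n g).ne_zero
  obtain ⟨x, hxx⟩ : ∃ x : ↥(isometryGroup K ⇑Q₂), ((x : GL ι K) : Matrix ι ι K) =
      l⁻¹ • ((g : GL ι F) : Matrix ι ι F).map f :=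
    ⟨⟨Matrix.GeneralLinearGroup.mkOfDetNeZero _ hdet0, mem_iso.2 hH⟩, rfl⟩
  have hdx : detO Q₂ x = 1 ↔ delta Q₁ hx n g = 1 := by
    rw [← Units.val_inj, detO_apply, hxx, hdet, Units.val_one, ← Units.val_inj, Units.val_one]
    constructor
    · intro h
      apply f.injective
      rw [h, map_one]
    · intro h
      rw [h, map_one]
  have himg : ∀ U : Submodule K (ι → K), imageSubmodule (((g : GL ι F) : Matrix ι ι F).map f) U =
      img Q₂ x U := by
    intro U
    rw [← image_iso, hxx, image_smul (inv_ne_zero hl0)]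
  have hpar : ∀ U : Submodule K (ι → K), TS Q₂ U → finrank K U = n →
      (SameParityClass U (imageSubmodule (((g : GL ι F) : Matrix ι ι F).map f) U) ↔
        delta Q₁ hx n g = 1) := by
    intro U hU hUn
    rw [himg, ← hdx, ← par_iso Q₂ hnd hdim h2 x hU hUn]
    unfold SameParityClass
    rw [hUn]
  have hmax := isMax_iff Q₂ hnd hdim hX0 hX0n
  constructor
  · intro h
    exact (hpar X0 hX0 hX0n).1 (h _ ((hmax _).2 ⟨hX0, hX0n⟩))
  · intro h U hU
    obtain ⟨hU1, hU2⟩ := (hmax U).1 hU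
    exact (hpar U hU1 hU2).2 h

/-- Elements of a finite field of odd order are squares in a quadratic extension. -/
theorem isSquare_algebraMap [Fintype F] {K : Type*} [Field K] [Fintype K] [Algebra F K]
    (hK : finrank F K = 2) (hodd : Odd (Fintype.card F)) (x : F) : IsSquare (algebraMap F K x) := by
  by_cases hx : x = 0
  · rw [hx, map_zero]
    exact IsSquare.zero
  have hcard : Fintype.card K = Fintype.card F ^ 2 := by
    rw [← hK]
    exact Module.card_eq_pow_finrank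
  have hchar : ringChar K ≠ 2 := by
    intro h
    have h1 := FiniteField.even_card_iff_char_two.1 h
    rw [hcard] at h1
    exact (Nat.not_even_iff_odd.2 hodd.pow) (Nat.even_iff.2 h1)
  rw [FiniteField.isSquare_iff hchar (by rwa [Ne, map_eq_zero])]
  obtain ⟨k, hk⟩ := hodd
  have h1 : Fintype.card K / 2 = (Fintype.card F - 1) * (k + 1) := by
    rw [hcard, hk]
    have : (2 * k + 1) ^ 2 = 2 * ((2 * k + 1 - 1) * (k + 1)) + 1 := by
      rw [Nat.add_sub_cancel]; ring
    rw [this]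
    omega
  rw [h1, pow_mul, ← map_pow, FiniteField.pow_card_sub_one_eq_one x hx, map_one, one_pow]

end Cfsg.Agent.Lib.Helper51OrthExt
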