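import Mathlib
import Cfsg.Prelude.Def_Classical
import Cfsg.Prelude.Def_ClassicalGeometry
import Cfsg.Agent.Lib.Helper49Orth
import Cfsg.Agent.Lib.Helper49Forms
import Cfsg.Agent.Lib.Helper49CD
import Cfsg.Agent.Lib.Helper49All
import Cfsg.Agent.Lib.Helper49Rank
import Cfsg.Agent.Lib.Helper49Fam
import Cfsg.Agent.Lib.Helper49Fam2
import Cfsg.Agent.Lib.Helper49Fam3
import Cfsg.Agent.Lib.Helper49Trans

set_option autoImplicit false
set_option linter.unusedSectionVars false

namespace Cfsg.Agent.Lib.Helper49Levi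

open scoped Matrix
open Module
open Cfsg.Agent.Lib.Helper49Orth Cfsg.Agent.Lib.Helper18Hyp
  Cfsg.Agent.Lib.Helper49Forms Cfsg.Agent.Lib.Helper49CD Cfsg.Agent.Lib.Helper49All
  Cfsg.Agent.Lib.Helper49Rank Cfsg.Agent.Lib.Helper49Fam Cfsg.Agent.Lib.Helper49Dickson
  Cfsg.Agent.Lib.Helper49Fam2 Cfsg.Agent.Lib.Helper49Fam3 Cfsg.Agent.Lib.Helper49Trans

variable {F : Type*} [Field F]

theorem QPlus_eq_dot (m : ℕ) (v : Fin m ⊕ Fin m → F) :
    QPlus m F v = (v ∘ Sum.inl) ⬝ᵥ (v ∘ Sum.inr) := by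
  rw [coe_QPlus]
  rfl

/-- The Levi embedding `A ↦ diag(A, A⁻ᵀ)`. -/
noncomputable def levi (m : ℕ) : GL (Fin m) F →* ↥(Cfsg.isometryGroup F ⇑(QPlus m F)) where
  toFun A := ⟨⟨Matrix.fromBlocks (A : Matrix (Fin m) (Fin m) F) 0 0
        ((A⁻¹ : GL (Fin m) F) : Matrix (Fin m) (Fin m) F)ᵀ,
      Matrix.fromBlocks ((A⁻¹ : GL (Fin m) F) : Matrix (Fin m) (Fin m) F) 0 0
        (A : Matrix (Fin m) (Fin m) F)ᵀ,
      by
        rw [Matrix.fromBlocks_multiply]
        simp only [Matrix.mul_zero, Matrix.zero_mul, add_zero, zero_add]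
        rw [← Matrix.transpose_mul, ← Units.val_mul, mul_inv_cancel]
        simp,
      by
        rw [Matrix.fromBlocks_multiply]
        simp only [Matrix.mul_zero, Matrix.zero_mul, add_zero, zero_add]
        rw [← Matrix.transpose_mul, ← Units.val_mul, inv_mul_cancel]
        simp⟩,
    mem_iso.2 fun v => by
      rw [Matrix.fromBlocks_mulVec, QPlus_eq_dot, QPlus_eq_dot]
      simp only [Matrix.zero_mulVec, add_zero, zero_add, Sum.elim_comp_inl, Sum.elim_comp_inr]
      rw [Matrix.mulVec_transpose, dotProduct_comm, Matrix.dotProduct_mulVec, Matrix.vecMul_vecMul,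
        ← Units.val_mul, inv_mul_cancel]
      simp [dotProduct_comm]⟩
  map_one' := by
    apply iso_ext
    simp
  map_mul' A B := by
    apply iso_ext
    simp [Matrix.fromBlocks_multiply, Matrix.transpose_mul]

theorem coe_levi (m : ℕ) (A : GL (Fin m) F) :
    (((levi m A : ↥(Cfsg.isometryGroup F ⇑(QPlus m F))) :
      Matrix.GeneralLinearGroup (Fin m ⊕ Fin m) F) : Matrix (Fin m ⊕ Fin m) (Fin m ⊕ Fin m) F)
      = Matrix.fromBlocks (A : Matrix (Fin m) (Fin m) F) 0 0
        ((A⁻¹ : GL (Fin m) F) : Matrix (Fin m) (Fin m) F)ᵀ := rfl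

theorem levi_mem_stab (m : ℕ) (A : GL (Fin m) F) : levi m A ∈ stab (QPlus m F) (U0 m F) := by
  apply mem_stab_of_le
  intro x hx
  rw [mem_U0] at hx ⊢
  intro i
  rw [coe_levi, Matrix.fromBlocks_mulVec]
  have : x ∘ Sum.inr = 0 := by
    funext k
    exact hx k
  simp [this]

theorem det_levi (m : ℕ) (A : GL (Fin m) F) : detO (QPlus m F) (levi m A) = 1 := by
  apply Units.ext
  rw [detO_apply, coe_levi, Matrix.det_fromBlocks_zero₂₁, Matrix.det_transpose, ← Matrix.det_mul,
    ← Units.val_mul, mul_inv_cancel]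
  simp

/-- Diagonal matrices as a homomorphism. -/
noncomputable def dg (m : ℕ) : (Fin m → Fˣ) →* GL (Fin m) F :=
  (Units.map (Matrix.diagonalRingHom (Fin m) F).toMonoidHom).comp
    MulEquiv.piUnits.symm.toMonoidHom

theorem coe_dg (m : ℕ) (d : Fin m → Fˣ) :
    ((dg m d : GL (Fin m) F) : Matrix (Fin m) (Fin m) F) = Matrix.diagonal (fun i => (d i : F)) :=
  rfl

theorem levi_dg_single (m : ℕ) (i : Fin m) (c : Fˣ) :
    levi m (dg m (Pi.mulSingle i c))
      = reflO' (QPlus m F) ((1 : F) • Pi.single (Sum.inl i) 1 + (1 : F) • Pi.single (Sum.inr i) 1)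
        * reflO' (QPlus m F)
          ((1 : F) • Pi.single (Sum.inl i) 1 + (c : F) • Pi.single (Sum.inr i) 1) := by
  have H := hypPair_QPlus (F := F) m i
  have hc : (c : F) ≠ 0 := c.ne_zero
  rw [reflO'_eq _ (by rw [H.Q_st]; simp), reflO'_eq _ (by rw [H.Q_st]; simp)]
  apply iso_ext
  simp only [Subgroup.coe_mul, Units.val_mul, coe_reflO]
  apply Matrix.mulVec_injective
  funext x k
  rw [← Matrix.mulVec_mulVec, HypPair.refl_apply (by simp) H one_ne_zero one_ne_zero,
    HypPair.refl_apply (by simp) H one_ne_zero hc, HypPair.refl_apply (by simp) H one_ne_zero hc,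
    HypPair.refl_apply (by simp) H one_ne_zero hc, coe_levi, ← map_inv, coe_dg, coe_dg,
    Matrix.diagonal_transpose, Matrix.fromBlocks_mulVec]
  simp only [Matrix.zero_mulVec, add_zero, zero_add]
  rcases k with k | k
  · simp only [Sum.elim_inl, Matrix.mulVec_diagonal, Function.comp_apply, Sum.inl.injEq,
      reduceCtorEq, if_false, if_true]
    by_cases hk : k = i
    · subst hk
      simp
    · simp [hk]
  · simp only [Sum.elim_inr, Matrix.mulVec_diagonal, Function.comp_apply, Sum.inr.injEq,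
      reduceCtorEq, if_false, if_true]
    by_cases hk : k = i
    · subst hk
      simp
    · simp [hk]

variable [Fintype F]

section Dec

variable [DecidableEq F]

theorem chi_levi_dg_single (h2 : (2 : F) ≠ 0) (m : ℕ) (i : Fin m) (c : Fˣ) :
    ((chi (QPlus m F) 1 (levi m (dg m (Pi.mulSingle i c))) : ℤˣ) : ℤ) = quadraticChar F (c : F) := by
  have H := hypPair_QPlus (F := F) m i
  have hc : (c : F) ≠ 0 := c.ne_zero
  rw [levi_dg_single]
  have h := chi_prod (QPlus m F) h2
    [(1 : F) • Pi.single (Sum.inl i) 1 + (1 : F) • Pi.single (Sum.inr i) 1,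
      (1 : F) • Pi.single (Sum.inl i) 1 + (c : F) • Pi.single (Sum.inr i) 1] (by
      intro v hv
      simp only [List.mem_cons, List.not_mem_nil, or_false] at hv
      rcases hv with rfl | rfl
      · rw [H.Q_st]; simp
      · rw [H.Q_st]; simp)
  simp only [List.map_cons, List.map_nil, List.prod_cons, List.prod_nil, mul_one, H.Q_st, one_mul,
    List.length_cons, List.length_nil] at h
  by_cases hsq : IsSquare (c : F)
  · rw [h.1 hsq, (quadraticChar_one_iff_isSquare hc).2 hsq]
    simp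
  · rw [h.2 hsq, quadraticChar_neg_one_iff_not_isSquare.2 hsq]
    simp

theorem chi_levi_dg (h2 : (2 : F) ≠ 0) (m : ℕ) (d : Fin m → Fˣ) :
    ((chi (QPlus m F) 1 (levi m (dg m d)) : ℤˣ) : ℤ) = quadraticChar F (∏ i, (d i : F)) := by
  have h := map_prod ((chi (QPlus m F) 1).comp ((levi m).comp (dg m)))
    (fun i => Pi.mulSingle i (d i)) Finset.univ
  rw [Finset.univ_prod_mulSingle d] at h
  simp only [MonoidHom.comp_apply] at h
  rw [h, map_prod, Units.coe_prod]
  exact Finset.prod_congr rfl fun i _ => chi_levi_dg_single h2 m i (d i)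

theorem chi_levi (h2 : (2 : F) ≠ 0) (m : ℕ) (A : GL (Fin m) F) :
    ((chi (QPlus m F) 1 (levi m A) : ℤˣ) : ℤ)
      = quadraticChar F (A : Matrix (Fin m) (Fin m) F).det := by
  have hdet : (A : Matrix (Fin m) (Fin m) F).det ≠ 0 := by
    have := Matrix.GeneralLinearGroup.det A |>.ne_zero
    simpa using this
  have key := Matrix.diagonal_transvection_induction_of_det_ne_zero
    (fun M => ∀ A : GL (Fin m) F, (A : Matrix (Fin m) (Fin m) F) = M →
      ((chi (QPlus m F) 1 (levi m A) : ℤˣ) : ℤ) = quadraticChar F M.det)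
    (A : Matrix (Fin m) (Fin m) F) hdet ?_ ?_ ?_
  · exact key A rfl
  · intro D hD A hA
    rw [Matrix.det_diagonal] at hD ⊢
    have hDi : ∀ i, D i ≠ 0 := fun i => Finset.prod_ne_zero_iff.1 hD i (Finset.mem_univ i)
    have : A = dg m (fun i => Units.mk0 (D i) (hDi i)) := by
      apply Units.ext
      rw [hA, coe_dg]
      simp
    rw [this, chi_levi_dg h2]
    simp
  · intro t A hA
    have : NeZero (2 : F) := ⟨h2⟩
    have hB : (Matrix.transvection t.i t.j (t.c / 2)).det ≠ 0 := by
      rw [Matrix.det_transvection_of_ne _ _ t.hij]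
      exact one_ne_zero
    have : A = Matrix.GeneralLinearGroup.mkOfDetNeZero _ hB
        * Matrix.GeneralLinearGroup.mkOfDetNeZero _ hB := by
      apply Units.ext
      rw [hA, Units.val_mul]
      change t.toMatrix = Matrix.transvection t.i t.j (t.c / 2) * Matrix.transvection t.i t.j (t.c / 2)
      rw [Matrix.transvection_mul_transvection_same _ _ t.hij, add_halves]
      rfl
    rw [this, map_mul, map_mul, Int.units_mul_self, Matrix.TransvectionStruct.det]
    simp
  · intro M N hM hN ihM ihN A hA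
    have : A = Matrix.GeneralLinearGroup.mkOfDetNeZero _ hM
        * Matrix.GeneralLinearGroup.mkOfDetNeZero _ hN := by
      apply Units.ext
      rw [hA, Units.val_mul]
      rfl
    rw [this, map_mul, map_mul, Units.val_mul, ihM _ rfl, ihN _ rfl, Matrix.det_mul, map_mul]

end Dec

theorem levi_mem_iff {m : ℕ} (h : Fintype.card F ≠ 2 ∨ m ≠ 2) (A : GL (Fin m) F) :
    levi m A ∈ Cfsg.Omega F ⇑(QPlus m F) ↔ IsSquare (A : Matrix (Fin m) (Fin m) F).det := by
  classical
  by_cases h2 : (2 : F) = 0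
  · have : CharP F 2 := CharTwo.of_one_ne_zero_of_two_eq_zero one_ne_zero h2
    have h1 : levi m A ∈ Cfsg.Omega F ⇑(QPlus m F) := by
      rw [← even_codim_iff_mem h (U0_TS m) (U0_finrank m), (mem_stab _).1 (levi_mem_stab m A),
        inf_idem, U0_finrank]
      simp
    exact ⟨fun _ => FiniteField.isSquare_of_char_two (ringChar.eq F 2) _, fun _ => h1⟩
  · have hdet : (A : Matrix (Fin m) (Fin m) F).det ≠ 0 := by
      have := Matrix.GeneralLinearGroup.det A |>.ne_zero
      simpa using this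
    rw [mem_Omega_iff _ h2 (QPlus_nondegenerate m), ← quadraticChar_one_iff_isSquare hdet,
      ← chi_levi h2]
    constructor
    · rintro ⟨-, h1⟩
      rw [h1]
      rfl
    · intro h1
      exact ⟨det_levi m A, Units.ext h1⟩

end Cfsg.Agent.Lib.Helper49Levi
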