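import Mathlib
import Cfsg.Agent.Lib.Helper51OrthIdx
import Cfsg.Agent.Lib.Helper49Disc

set_option autoImplicit false
set_option linter.unusedSectionVars false
set_option linter.unusedSimpArgs false

namespace Cfsg.Agent.Lib.Helper51OrthInst

open Cfsg Matrix
open scoped MatrixGroups
open Cfsg.Agent.Lib.Helper49Orth Cfsg.Agent.Lib.Helper49Forms
open Cfsg.Agent.Lib.Helper49Gram Cfsg.Agent.Lib.Helper49Disc
open Cfsg.Agent.Lib.Helper51OrthIdx

variable {F : Type*} [Field F]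

theorem good_QPlus (h2 : (2 : F) ≠ 0) {m : ℕ} (hm : 2 ≤ m) : Good (QPlus m F) where
  two := h2
  nondeg := nondegenerate_of_det_gram_ne_zero _ (by
    rw [det_gram_QPlus]
    exact pow_ne_zero _ (neg_ne_zero.2 one_ne_zero))
  pairs := by
    have h01 : (⟨0, by omega⟩ : Fin m) ≠ ⟨1, by omega⟩ := by simp [Fin.ext_iff]
    refine ⟨Sum.inl ⟨0, by omega⟩, Sum.inr ⟨0, by omega⟩, Sum.inl ⟨1, by omega⟩, Sum.inr ⟨1, by omega⟩,
      by simp, by simp, ?_, by simp, by simp, ?_, hypPair_QPlus m _, hypPair_QPlus m _⟩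
    · simpa using h01
    · simpa using h01

theorem card_plus (m : ℕ) : Fintype.card (Fin m ⊕ Fin m) = 2 * m := by
  simp [two_mul]

theorem good_QMinus (h2 : (2 : F) ≠ 0) {m : ℕ} (hm : 2 ≤ m) {a b : F}
    (hab : ∀ z₁ z₂ : F, z₁ ^ 2 + a * z₁ * z₂ + b * z₂ ^ 2 = 0 → z₁ = 0 ∧ z₂ = 0) :
    Good (QMinus m F a b) where
  two := h2
  nondeg := nondegenerate_of_det_gram_ne_zero _ (by
    rw [det_gram_QMinus]
    apply mul_ne_zero (pow_ne_zero _ (neg_ne_zero.2 one_ne_zero))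
    intro h
    apply not_isSquare_disc h2 hab
    have : a ^ 2 - 4 * b = 0 := by linear_combination -h
    rw [this]
    exact IsSquare.zero)
  pairs := by
    have h01 : (⟨0, by omega⟩ : Fin m) ≠ ⟨1, by omega⟩ := by simp [Fin.ext_iff]
    refine ⟨Sum.inl (Sum.inl ⟨0, by omega⟩), Sum.inl (Sum.inr ⟨0, by omega⟩),
      Sum.inl (Sum.inl ⟨1, by omega⟩), Sum.inl (Sum.inr ⟨1, by omega⟩),
      by simp, by simp, ?_, by simp, by simp, ?_, hypPair_QMinus m a b _, hypPair_QMinus m a b _⟩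
    · simpa using h01
    · simpa using h01

theorem card_minus (m : ℕ) : Fintype.card ((Fin m ⊕ Fin m) ⊕ Fin 2) = 2 * (m + 1) := by
  simp; ring

end Cfsg.Agent.Lib.Helper51OrthInst
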