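import Mathlib
import Cfsg.Agent.Lib.Helper51OrthIdx4
import Cfsg.Agent.Lib.Helper51OrthInst
import Cfsg.Agent.S0790
import Cfsg.Agent.S0791

set_option autoImplicit false
set_option linter.unusedSectionVars false
set_option linter.unusedSimpArgs false

namespace Cfsg.Agent.Lib.Helper51OrthInst2

open Cfsg Matrix
open scoped MatrixGroups
open Cfsg.Agent.Lib.Helper49Forms
open Cfsg.Agent.Lib.Helper51OrthIdx Cfsg.Agent.Lib.Helper51OrthIdx3 Cfsg.Agent.Lib.Helper51OrthIdx4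

variable {F : Type*} [Field F] [Fintype F]

theorem negIn_QPlus (hodd : Odd (Fintype.card F)) {m : ℕ} (hm : 1 ≤ m) :
    NegIn (QPlus m F) ↔ ¬ (Odd m ∧ Fintype.card F % 4 = 3) := by
  rw [← pow_mod_four_eq_one hodd, ← Cfsg.Agent.S0790.result rfl hodd m hm]
  unfold NegIn
  rw [coe_QPlus]

theorem negIn_QMinus (hodd : Odd (Fintype.card F)) (m : ℕ) {a b : F}
    (hab : ∀ z₁ z₂ : F, z₁ ^ 2 + a * z₁ * z₂ + b * z₂ ^ 2 = 0 → z₁ = 0 ∧ z₂ = 0) :
    NegIn (QMinus m F a b) ↔ (Even m ∧ Fintype.card F % 4 = 3) := by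
  have h1 := Cfsg.Agent.S0791.result rfl hodd (m + 1) (by omega) a b hab
  rw [pow_mod_four_eq_three hodd] at h1
  have h2 : Odd (m + 1) ↔ Even m := by
    rw [Nat.odd_add_one, Nat.not_odd_iff_even]
  rw [h2] at h1
  rw [← h1]
  unfold NegIn
  rw [coe_QMinus]
  rfl

end Cfsg.Agent.Lib.Helper51OrthInst2
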