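import Mathlib
import Cfsg.Agent.Lib.Helper51OrthDiag
import Cfsg.Agent.Lib.Helper51OrthInst2
import Cfsg.Agent.Lib.Helper49Fam2
import Cfsg.Agent.Lib.Helper49Levi

set_option autoImplicit false
set_option linter.unusedSectionVars false
set_option linter.unusedSimpArgs false

namespace Cfsg.Agent.Lib.Helper51OrthPlus

open Cfsg Matrix Module
open scoped MatrixGroups
open Cfsg.Agent.Lib.Helper49Orth Cfsg.Agent.Lib.Helper49Forms Cfsg.Agent.Lib.Helper49All
open Cfsg.Agent.Lib.Helper49Idx Cfsg.Agent.Lib.Helper49Gram Cfsg.Agent.Lib.Helper49CD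
open Cfsg.Agent.Lib.Helper49Fam Cfsg.Agent.Lib.Helper49Fam2 Cfsg.Agent.Lib.Helper49Witt
open Cfsg.Agent.Lib.Helper49Levi Cfsg.Agent.Lib.Helper49Disc
open Cfsg.Agent.Lib.Helper18Hyp Cfsg.Agent.Lib.Helper49Rank
open Cfsg.Agent.Lib.Helper51OrthAut Cfsg.Agent.Lib.Helper51OrthKer Cfsg.Agent.Lib.Helper51Abs
open Cfsg.Agent.Lib.Helper51OrthIdx Cfsg.Agent.Lib.Helper51OrthIdx2 Cfsg.Agent.Lib.Helper51OrthIdx3
open Cfsg.Agent.Lib.Helper51OrthIdx4 Cfsg.Agent.Lib.Helper51OrthPar Cfsg.Agent.Lib.Helper51OrthDiag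
open Cfsg.Agent.Lib.Helper51OrthInst Cfsg.Agent.Lib.Helper51OrthInst2

variable {F : Type*} [Field F] (m : ℕ)

/-- `diag(μ, 1)`. -/
def dMat (c : F) : Matrix (Fin m ⊕ Fin m) (Fin m ⊕ Fin m) F :=
  Matrix.fromBlocks (c • (1 : Matrix (Fin m) (Fin m) F)) 0 0 1

/-- The coordinate swap. -/
def wMat : Matrix (Fin m ⊕ Fin m) (Fin m ⊕ Fin m) F :=
  Matrix.fromBlocks 0 (1 : Matrix (Fin m) (Fin m) F) 1 0

theorem Q_dMat (c : F) (v : Fin m ⊕ Fin m → F) :
    QPlus m F (dMat m c *ᵥ v) = c * QPlus m F v := by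
  rw [QPlus_eq_dot, QPlus_eq_dot, dMat, Matrix.fromBlocks_mulVec]
  simp [Matrix.smul_mulVec, smul_dotProduct]

theorem Q_wMat (v : Fin m ⊕ Fin m → F) :
    QPlus m F ((wMat m : Matrix (Fin m ⊕ Fin m) (Fin m ⊕ Fin m) F) *ᵥ v) = QPlus m F v := by
  rw [QPlus_eq_dot, QPlus_eq_dot, wMat, Matrix.fromBlocks_mulVec]
  simp [dotProduct_comm]

theorem det_dMat (c : F) : (dMat m c).det = c ^ m := by
  rw [dMat, Matrix.det_fromBlocks_zero₂₁]
  simp

theorem det_wMat : (wMat m : Matrix (Fin m ⊕ Fin m) (Fin m ⊕ Fin m) F).det = (-1) ^ m := det_swap_blocks m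

theorem dw_sq (c : F) : (dMat m c * wMat m) * (dMat m c * wMat m) = c • 1 := by
  simp only [dMat, wMat, Matrix.fromBlocks_multiply]
  simp [← Matrix.fromBlocks_one, Matrix.fromBlocks_smul]

/-- `diag(μ,1)` as a similitude. -/
noncomputable def dsim (c : Fˣ) : ↥(GO (QPlus m F)) :=
  ⟨Matrix.GeneralLinearGroup.mkOfDetNeZero (dMat m (c : F))
    (by rw [det_dMat]; exact pow_ne_zero _ c.ne_zero), ⟨c, Q_dMat m (c : F)⟩⟩

theorem coe_dsim (c : Fˣ) : (((dsim m c : ↥(GO (QPlus m F))) : GL (Fin m ⊕ Fin m) F) : Matrix (Fin m ⊕ Fin m) (Fin m ⊕ Fin m) F) = dMat m (c : F) := rfl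

/-- The swap as an isometry. -/
noncomputable def wO : ↥(isometryGroup F ⇑(QPlus m F)) :=
  ⟨Matrix.GeneralLinearGroup.mkOfDetNeZero (wMat m : Matrix (Fin m ⊕ Fin m) (Fin m ⊕ Fin m) F)
    (by rw [det_wMat]; exact pow_ne_zero _ (neg_ne_zero.2 one_ne_zero)), mem_iso.2 (Q_wMat m)⟩

theorem coe_wO : (((wO m : ↥(isometryGroup F ⇑(QPlus m F))) : GL (Fin m ⊕ Fin m) F) : Matrix (Fin m ⊕ Fin m) (Fin m ⊕ Fin m) F) = wMat m := rfl

theorem mu_dsim (hx : ∃ x, QPlus m F x = 1) (c : Fˣ) : mu (QPlus m F) hx (dsim m c) = c :=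
  mu_eq _ hx _ _ (Q_dMat m (c : F))

theorem delta_dsim (hx : ∃ x, QPlus m F x = 1) (c : Fˣ) : delta (QPlus m F) hx m (dsim m c) = 1 := by
  rw [delta_apply, mu_dsim]
  have : Matrix.GeneralLinearGroup.det ((dsim m c : ↥(GO (QPlus m F))) : GL (Fin m ⊕ Fin m) F) = c ^ m := by
    apply Units.ext
    rw [Matrix.GeneralLinearGroup.val_det_apply, coe_dsim, det_dMat, Units.val_pow_eq_pow_val]
  rw [this, inv_pow, mul_inv_cancel]

theorem image_dsim (c : Fˣ) : imageSubmodule (dMat m (c : F)) (U0 m F) = U0 m F := by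
  apply Submodule.eq_of_le_of_finrank_eq
  · rintro _ ⟨v, hv, rfl⟩
    rw [SetLike.mem_coe, mem_U0] at hv
    rw [mem_U0]
    intro i
    rw [Matrix.toLin'_apply, dMat, Matrix.fromBlocks_mulVec]
    simp only [Sum.elim_inr, Matrix.zero_mulVec, Matrix.one_mulVec, zero_add, Function.comp]
    exact hv i
  · exact finrank_image ((dsim m c : ↥(GO (QPlus m F))) : GL (Fin m ⊕ Fin m) F) _

section Fin

variable [Fintype F]

/-- For each maximal totally singular subspace and multiplier there is a proper similitude with that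
multiplier stabilising it. -/
theorem exists_stab (hx : ∃ x, QPlus m F x = 1) {U : Submodule F (Fin m ⊕ Fin m → F)}
    (hU : TS (QPlus m F) U) (hUm : finrank F U = m) (c : Fˣ) :
    ∃ d : ↥(GO (QPlus m F)), mu (QPlus m F) hx d = c ∧ delta (QPlus m F) hx m d = 1 ∧
      imageSubmodule ((d : GL (Fin m ⊕ Fin m) F) : Matrix (Fin m ⊕ Fin m) (Fin m ⊕ Fin m) F) U = U := by
  obtain ⟨a, ha⟩ := exists_img_eq_of_TS (QPlus m F) (QPlus_nondegenerate m) (U0_TS m) hU
    (by rw [U0_finrank, hUm])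
  refine ⟨incO _ a * dsim m c * (incO _ a)⁻¹, ?_, ?_, ?_⟩
  · rw [map_mul, map_mul, map_inv, mu_incO, mu_dsim]
    simp
  · rw [map_mul, map_mul, map_inv, delta_dsim]
    simp
  · have h1 : imageSubmodule ((((incO _ a)⁻¹ : ↥(GO (QPlus m F))) : GL (Fin m ⊕ Fin m) F) : Matrix (Fin m ⊕ Fin m) (Fin m ⊕ Fin m) F) U = U0 m F := by
      rw [← ha, ← image_iso, ← coe_incO, ← image_mul, ← Units.val_mul, ← Subgroup.coe_mul,
        inv_mul_cancel]
      exact image_one _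
    rw [Subgroup.coe_mul, Subgroup.coe_mul, Units.val_mul, Units.val_mul, image_mul, image_mul, h1,
      coe_dsim, image_dsim, coe_incO, image_iso, ha]

theorem sameParity_iff (h2 : (2 : F) ≠ 0) (hx : ∃ x, QPlus m F x = 1) (g : ↥(GO (QPlus m F)))
    {U : Submodule F (Fin m ⊕ Fin m → F)} (hU : TS (QPlus m F) U) (hUm : finrank F U = m) :
    SameParityClass U (imageSubmodule ((g : GL (Fin m ⊕ Fin m) F) : Matrix (Fin m ⊕ Fin m) (Fin m ⊕ Fin m) F) U) ↔
      delta (QPlus m F) hx m g = 1 := by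
  obtain ⟨d, hd1, hd2, hd3⟩ := exists_stab m hx hU hUm (mu (QPlus m F) hx g)
  obtain ⟨x, hxg⟩ := exists_incO (QPlus m F) hx (g := g * d⁻¹) (by rw [map_mul, map_inv, hd1, mul_inv_cancel])
  have h1 : imageSubmodule ((g : GL (Fin m ⊕ Fin m) F) : Matrix (Fin m ⊕ Fin m) (Fin m ⊕ Fin m) F) U = img (QPlus m F) x U := by
    have : g = incO _ x * d := by rw [hxg]; group
    rw [this, Subgroup.coe_mul, Units.val_mul, image_mul, hd3, coe_incO, image_iso]
  have h3 : detO (QPlus m F) x = delta (QPlus m F) hx m g := by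
    rw [← delta_incO (QPlus m F) hx m, hxg, map_mul, map_inv, hd2]
    simp
  rw [h1, ← h3, ← par_iso (QPlus m F) (QPlus_nondegenerate m) (Helper49Fam2.finrank_V m) h2 x hU hUm]
  unfold SameParityClass
  rw [hUm]

theorem preserves_iff (h2 : (2 : F) ≠ 0) (hx : ∃ x, QPlus m F x = 1) (g : ↥(GO (QPlus m F))) :
    PreservesSingularClasses ⇑(QPlus m F) ((g : GL (Fin m ⊕ Fin m) F) : Matrix (Fin m ⊕ Fin m) (Fin m ⊕ Fin m) F) ↔
      delta (QPlus m F) hx m g = 1 := by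
  have hmax := isMax_iff (QPlus m F) (QPlus_nondegenerate m) (Helper49Fam2.finrank_V m) (U0_TS m)
    (U0_finrank m)
  constructor
  · intro h
    exact (sameParity_iff m h2 hx g (U0_TS m) (U0_finrank m)).1
      (h _ ((hmax _).2 ⟨U0_TS m, U0_finrank m⟩))
  · intro h U hU
    obtain ⟨hU1, hU2⟩ := (hmax U).1 hU
    exact (sameParity_iff m h2 hx g hU1 hU2).2 h

theorem inndiagGen_eq (G : Good (QPlus m F)) :
    inndiagGen ⇑(QPlus m F) = (DD (QPlus m F) G m).map (cAut ⇑(QPlus m F)) :=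
  autSubgroupOf_eq (QPlus m F)
    (fun g => PreservesSingularClasses ⇑(QPlus m F) (g : Matrix (Fin m ⊕ Fin m) (Fin m ⊕ Fin m) F)) _
    (fun g => preserves_iff m G.two G.exists_one g)

/-- The similitude `(x, y) ↦ (μ y, x)`, whose square is the scalar `μ`. -/
noncomputable def bsim (c : Fˣ) : ↥(GO (QPlus m F)) := dsim m c * incO _ (wO m)

theorem bsim_sq (c : Fˣ) : bsim m c * bsim m c = scal (QPlus m F) c := by
  apply Subtype.ext
  apply Units.ext
  rw [coe_scal]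
  exact dw_sq m (c : F)

theorem mu_bsim (hx : ∃ x, QPlus m F x = 1) (c : Fˣ) : mu (QPlus m F) hx (bsim m c) = c := by
  rw [bsim, map_mul, mu_dsim, mu_incO, mul_one]

theorem delta_bsim (hx : ∃ x, QPlus m F x = 1) (c : Fˣ) :
    delta (QPlus m F) hx m (bsim m c) = (-1) ^ m := by
  rw [bsim, map_mul, delta_dsim, delta_incO, one_mul]
  apply Units.ext
  rw [detO_apply, coe_wO, det_wMat]
  simp

end Fin

end Cfsg.Agent.Lib.Helper51OrthPlus
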