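import Mathlib
import Cfsg.Agent.Lib.Helper51OrthExt
import Cfsg.Agent.Lib.Helper51OrthPlus

set_option autoImplicit false
set_option linter.unusedSectionVars false
set_option linter.unusedSimpArgs false

namespace Cfsg.Agent.Lib.Helper51OrthMinus

open Cfsg Matrix Module
open scoped MatrixGroups
open Cfsg.Agent.Lib.Helper49Orth Cfsg.Agent.Lib.Helper49Forms Cfsg.Agent.Lib.Helper49All
open Cfsg.Agent.Lib.Helper49Idx Cfsg.Agent.Lib.Helper49Gram Cfsg.Agent.Lib.Helper49CD
open Cfsg.Agent.Lib.Helper49Disc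
open Cfsg.Agent.Lib.Helper18Hyp
open Cfsg.Agent.Lib.Helper51OrthAut Cfsg.Agent.Lib.Helper51OrthKer Cfsg.Agent.Lib.Helper51Abs
open Cfsg.Agent.Lib.Helper51OrthIdx Cfsg.Agent.Lib.Helper51OrthIdx2 Cfsg.Agent.Lib.Helper51OrthIdx3
open Cfsg.Agent.Lib.Helper51OrthIdx4 Cfsg.Agent.Lib.Helper51OrthPar Cfsg.Agent.Lib.Helper51OrthDiag
open Cfsg.Agent.Lib.Helper51OrthInst Cfsg.Agent.Lib.Helper51OrthInst2 Cfsg.Agent.Lib.Helper51OrthExt
open Cfsg.Agent.Lib.Helper51OrthPlus

variable {F : Type*} [Field F] (m : ℕ)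

theorem gram_map {K : Type*} [Field K] (f : F →+* K) (a b : F) :
    Helper49Gram.gram (QMinus m K (f a) (f b)) = (Helper49Gram.gram (QMinus m F a b)).map f := by
  rw [gram_QMinus, gram_QMinus, Matrix.fromBlocks_map, Matrix.fromBlocks_map]
  congr 1
  · congr 1 <;> ext i j <;> simp [Matrix.one_apply, apply_ite f]
  · ext i j; simp
  · ext i j; simp
  · ext i j
    fin_cases i <;> fin_cases j <;> simp [map_ofNat f]

/-- Parametrisation of a maximal totally singular subspace once the binary part has a root. -/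
noncomputable def X0map (ρ : F) : ((Fin m → F) × F) →ₗ[F] ((Fin m ⊕ Fin m) ⊕ Fin 2 → F) :=
  LinearMap.pi (fun k => Sum.elim
    (Sum.elim (fun i => (LinearMap.proj i).comp (LinearMap.fst F (Fin m → F) F)) (fun _ => 0))
    (fun j => (![ρ, 1] j) • LinearMap.snd F (Fin m → F) F) k)

theorem X0map_ll (ρ : F) (p : (Fin m → F) × F) (i : Fin m) :
    X0map m ρ p (Sum.inl (Sum.inl i)) = p.1 i := rfl

theorem X0map_lr (ρ : F) (p : (Fin m → F) × F) (i : Fin m) :
    X0map m ρ p (Sum.inl (Sum.inr i)) = 0 := rfl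

theorem X0map_r0 (ρ : F) (p : (Fin m → F) × F) : X0map m ρ p (Sum.inr 0) = ρ * p.2 := rfl

theorem X0map_r1 (ρ : F) (p : (Fin m → F) × F) : X0map m ρ p (Sum.inr 1) = p.2 := by
  show (1 : F) * p.2 = p.2
  rw [one_mul]

theorem X0_TS {a b ρ : F} (hρ : ρ ^ 2 + a * ρ + b = 0) :
    TS (QMinus m F a b) (LinearMap.range (X0map m ρ)) := by
  rintro _ ⟨p, rfl⟩
  rw [coe_QMinus]
  unfold quadFormMinus
  simp only [X0map_ll, X0map_lr, X0map_r0, X0map_r1, mul_zero, Finset.sum_const_zero, zero_add]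
  linear_combination p.2 ^ 2 * hρ

theorem X0_finrank (ρ : F) : finrank F (LinearMap.range (X0map m ρ)) = m + 1 := by
  rw [LinearMap.finrank_range_of_inj, Module.finrank_prod, Module.finrank_fin_fun, Module.finrank_self]
  intro p p' h
  apply Prod.ext
  · funext i
    have := congrFun h (Sum.inl (Sum.inl i))
    rwa [X0map_ll, X0map_ll] at this
  · have := congrFun h (Sum.inr 1)
    rwa [X0map_r1, X0map_r1] at this

section Fin

variable [Fintype F]

theorem key {K : Type*} [Field K] [Fintype K] [Algebra F K] (hK : finrank F K = 2)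
    (hodd : Odd (Fintype.card F)) {a b : F}
    (hab : ∀ z₁ z₂ : F, z₁ ^ 2 + a * z₁ * z₂ + b * z₂ ^ 2 = 0 → z₁ = 0 ∧ z₂ = 0)
    (hx : ∃ x, QMinus m F a b x = 1) (g : ↥(GO (QMinus m F a b))) :
    PreservesSingularClasses (quadFormMinus m K (algebraMap F K a) (algebraMap F K b))
      (((g : GL ((Fin m ⊕ Fin m) ⊕ Fin 2) F) : Matrix ((Fin m ⊕ Fin m) ⊕ Fin 2)
        ((Fin m ⊕ Fin m) ⊕ Fin 2) F).map (algebraMap F K)) ↔
      delta (QMinus m F a b) hx (m + 1) g = 1 := by
  have h2 : (2 : F) ≠ 0 := two_ne_zero_of_odd rfl hodd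
  have h2K : (2 : K) ≠ 0 := by
    have : (2 : K) = algebraMap F K 2 := (map_ofNat (algebraMap F K) 2).symm
    rw [this, Ne, map_eq_zero]
    exact h2
  have hdisc : a ^ 2 - 4 * b ≠ 0 := by
    intro h
    apply not_isSquare_disc h2 hab
    rw [h]
    exact IsSquare.zero
  have hnd : (QuadraticMap.polarBilin (QMinus m K (algebraMap F K a) (algebraMap F K b))).Nondegenerate := by
    apply nondegenerate_of_det_gram_ne_zero
    rw [det_gram_QMinus]
    apply mul_ne_zero (pow_ne_zero _ (neg_ne_zero.2 one_ne_zero))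
    have : 4 * algebraMap F K b - algebraMap F K a ^ 2 = algebraMap F K (-(a ^ 2 - 4 * b)) := by
      simp [map_ofNat (algebraMap F K)]
    rw [this, Ne, map_eq_zero, neg_eq_zero]
    exact hdisc
  obtain ⟨s, hs⟩ := isSquare_algebraMap (K := K) hK hodd (a ^ 2 - 4 * b)
  have hρ : ((-algebraMap F K a + s) / 2) ^ 2 + algebraMap F K a * ((-algebraMap F K a + s) / 2) +
      algebraMap F K b = 0 := by
    have hs' : algebraMap F K a ^ 2 - 4 * algebraMap F K b = s * s := by
      rw [← hs]; simp [map_ofNat (algebraMap F K)]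
    field_simp
    linear_combination -hs'
  rw [← coe_QMinus]
  exact preserves_ext (algebraMap F K) (QMinus m F a b) _ (gram_map m _ a b) h2K hnd (card_minus m)
    (isSquare_algebraMap hK hodd) (X0_TS m hρ) (X0_finrank m _) hx g

end Fin

end Cfsg.Agent.Lib.Helper51OrthMinus
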