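import Mathlib
import Cfsg.Agent.Lib.Helper51OrthMinus

set_option autoImplicit false
set_option linter.unusedSectionVars false
set_option linter.unusedSimpArgs false

namespace Cfsg.Agent.Lib.Helper51OrthMinus2

open Cfsg Matrix Module
open scoped MatrixGroups
open Cfsg.Agent.Lib.Helper49Orth Cfsg.Agent.Lib.Helper49Forms Cfsg.Agent.Lib.Helper49All
open Cfsg.Agent.Lib.Helper49Idx Cfsg.Agent.Lib.Helper49Gram Cfsg.Agent.Lib.Helper49CD
open Cfsg.Agent.Lib.Helper49Disc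
open Cfsg.Agent.Lib.Helper18Hyp
open Cfsg.Agent.Lib.Helper51OrthAut Cfsg.Agent.Lib.Helper51OrthKer Cfsg.Agent.Lib.Helper51Abs
open Cfsg.Agent.Lib.Helper51OrthIdx Cfsg.Agent.Lib.Helper51OrthIdx2 Cfsg.Agent.Lib.Helper51OrthIdx3
open Cfsg.Agent.Lib.Helper51OrthIdx4 Cfsg.Agent.Lib.Helper51OrthPar Cfsg.Agent.Lib.Helper51OrthDiag
open Cfsg.Agent.Lib.Helper51OrthInst Cfsg.Agent.Lib.Helper51OrthInst2 Cfsg.Agent.Lib.Helper51OrthExt
open Cfsg.Agent.Lib.Helper51OrthPlus Cfsg.Agent.Lib.Helper51OrthMinus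

universe u

variable {F : Type u} [Field F] (m : ℕ)

open Polynomial in
theorem exists_quadratic_ext {a b : F}
    (hab : ∀ z₁ z₂ : F, z₁ ^ 2 + a * z₁ * z₂ + b * z₂ ^ 2 = 0 → z₁ = 0 ∧ z₂ = 0) :
    ∃ (K : Type u) (_ : Field K) (_ : Algebra F K), finrank F K = 2 := by
  have hdeg : (X ^ 2 + C a * X + C b : F[X]).natDegree = 2 := by compute_degree!
  have hmonic : (X ^ 2 + C a * X + C b : F[X]).Monic := by monicity!
  have hirr : Irreducible (X ^ 2 + C a * X + C b : F[X]) := by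
    rw [hmonic.irreducible_iff_roots_eq_zero_of_degree_le_three (by omega) (by omega)]
    rw [Multiset.eq_zero_iff_forall_notMem]
    intro z hz
    rw [mem_roots hmonic.ne_zero, IsRoot.def] at hz
    simp only [eval_add, eval_pow, eval_X, eval_mul, eval_C] at hz
    have := hab z 1 (by linear_combination hz)
    exact one_ne_zero this.2
  haveI : Fact (Irreducible (X ^ 2 + C a * X + C b : F[X])) := ⟨hirr⟩
  refine ⟨AdjoinRoot (X ^ 2 + C a * X + C b : F[X]), inferInstance, inferInstance, ?_⟩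
  rw [(AdjoinRoot.powerBasis hmonic.ne_zero).finrank, AdjoinRoot.powerBasis_dim, hdeg]

section Fin

variable [Fintype F]

theorem preservesMinus_iff (hodd : Odd (Fintype.card F)) {a b : F}
    (hab : ∀ z₁ z₂ : F, z₁ ^ 2 + a * z₁ * z₂ + b * z₂ ^ 2 = 0 → z₁ = 0 ∧ z₂ = 0)
    (hx : ∃ x, QMinus m F a b x = 1) (g : ↥(GO (QMinus m F a b))) :
    PreservesSingularClassesMinus m a b ((g : GL ((Fin m ⊕ Fin m) ⊕ Fin 2) F) :
      Matrix ((Fin m ⊕ Fin m) ⊕ Fin 2) ((Fin m ⊕ Fin m) ⊕ Fin 2) F) ↔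
      delta (QMinus m F a b) hx (m + 1) g = 1 := by
  constructor
  · rintro ⟨K, _, _, hK, hP⟩
    haveI : Module.Finite F K := Module.finite_of_finrank_pos (by omega)
    haveI : Finite K := Module.finite_of_finite F
    haveI : Fintype K := Fintype.ofFinite K
    exact (key m hK hodd hab hx g).1 hP
  · intro h
    obtain ⟨K, _, _, hK⟩ := exists_quadratic_ext hab
    haveI : Module.Finite F K := Module.finite_of_finrank_pos (by omega)
    haveI : Finite K := Module.finite_of_finite F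
    haveI : Fintype K := Fintype.ofFinite K
    exact ⟨K, _, _, hK, (key m hK hodd hab hx g).2 h⟩

end Fin

/-- The generic version of the minus-type inner-diagonal group. -/
def inndiagMinusGen (a b : F) (Q : ((Fin m ⊕ Fin m) ⊕ Fin 2 → F) → F) : Subgroup (MulAut (POmega F Q)) :=
  autSubgroupOf fun β => ∃ g : GL ((Fin m ⊕ Fin m) ⊕ Fin 2) F,
    g ∈ Geo.quadSimilarityGroup (F := F) Q ∧
    PreservesSingularClassesMinus m a b (g : Matrix ((Fin m ⊕ Fin m) ⊕ Fin 2) ((Fin m ⊕ Fin m) ⊕ Fin 2) F) ∧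
    IsInducedBySemilinearPOmega Q g (RingEquiv.refl F) β

theorem inndiagMinus_eq (a b : F) :
    inndiagPOmegaMinus m F a b = inndiagMinusGen m a b (quadFormMinus m F a b) := rfl

theorem inndiagMinusGen_eq [Fintype F] (hodd : Odd (Fintype.card F)) {a b : F}
    (hab : ∀ z₁ z₂ : F, z₁ ^ 2 + a * z₁ * z₂ + b * z₂ ^ 2 = 0 → z₁ = 0 ∧ z₂ = 0)
    (G : Good (QMinus m F a b)) :
    inndiagMinusGen m a b ⇑(QMinus m F a b) =
      (DD (QMinus m F a b) G (m + 1)).map (cAut ⇑(QMinus m F a b)) :=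
  autSubgroupOf_eq (QMinus m F a b)
    (fun g => PreservesSingularClassesMinus m a b
      (g : Matrix ((Fin m ⊕ Fin m) ⊕ Fin 2) ((Fin m ⊕ Fin m) ⊕ Fin 2) F)) _
    (fun g => preservesMinus_iff m hodd hab G.exists_one g)

/-! ### A similitude whose square is a scalar -/

/-- `z ↦ η z̄` on the anisotropic plane. -/
def tMat (a b e₁ e₂ : F) : Matrix (Fin 2) (Fin 2) F := !![e₁, a * e₁ + b * e₂; e₂, -e₁]

/-- The similitude. -/
def bMat (a b e₁ e₂ c : F) : Matrix ((Fin m ⊕ Fin m) ⊕ Fin 2) ((Fin m ⊕ Fin m) ⊕ Fin 2) F :=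
  Matrix.fromBlocks (dMat m c * wMat m) 0 0 (tMat a b e₁ e₂)

theorem QMinus_eq (a b : F) (v : (Fin m ⊕ Fin m) ⊕ Fin 2 → F) :
    QMinus m F a b v = QPlus m F (v ∘ Sum.inl) +
      (v (Sum.inr 0) ^ 2 + a * v (Sum.inr 0) * v (Sum.inr 1) + b * v (Sum.inr 1) ^ 2) := by
  rw [coe_QMinus, coe_QPlus]
  rfl

theorem Q_bMat {a b e₁ e₂ c : F} (he : e₁ ^ 2 + a * e₁ * e₂ + b * e₂ ^ 2 = c)
    (v : (Fin m ⊕ Fin m) ⊕ Fin 2 → F) :
    QMinus m F a b (bMat m a b e₁ e₂ c *ᵥ v) = c * QMinus m F a b v := by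
  rw [QMinus_eq, QMinus_eq, bMat, Matrix.fromBlocks_mulVec]
  have h1 : (Sum.elim ((dMat m c * wMat m) *ᵥ (v ∘ Sum.inl) + (0 : Matrix (Fin m ⊕ Fin m) (Fin 2) F) *ᵥ (v ∘ Sum.inr))
      ((0 : Matrix (Fin 2) (Fin m ⊕ Fin m) F) *ᵥ (v ∘ Sum.inl) + tMat a b e₁ e₂ *ᵥ (v ∘ Sum.inr))) ∘ Sum.inl
      = dMat m c *ᵥ (wMat m *ᵥ (v ∘ Sum.inl)) := by
    funext k
    simp [Matrix.mulVec_mulVec]
  rw [h1, Q_dMat, Q_wMat]
  simp only [Sum.elim_inr, Matrix.zero_mulVec, zero_add, tMat]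
  simp only [Matrix.mulVec, dotProduct, Fin.sum_univ_two, Matrix.of_apply, Matrix.cons_val_zero,
    Matrix.cons_val_one, Function.comp, Matrix.cons_val', Matrix.cons_val_fin_one]
  rw [← he]
  ring

theorem tMat_sq {a b e₁ e₂ c : F} (he : e₁ ^ 2 + a * e₁ * e₂ + b * e₂ ^ 2 = c) :
    tMat a b e₁ e₂ * tMat a b e₁ e₂ = c • 1 := by
  ext i j
  fin_cases i <;> fin_cases j <;>
    simp [tMat, Matrix.mul_apply, Fin.sum_univ_two] <;> first | linear_combination he | ring1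

theorem bMat_sq {a b e₁ e₂ c : F} (he : e₁ ^ 2 + a * e₁ * e₂ + b * e₂ ^ 2 = c) :
    bMat m a b e₁ e₂ c * bMat m a b e₁ e₂ c = c • 1 := by
  rw [bMat, Matrix.fromBlocks_multiply, dw_sq, tMat_sq he]
  simp [← Matrix.fromBlocks_one, Matrix.fromBlocks_smul]

theorem det_bMat {a b e₁ e₂ c : F} (he : e₁ ^ 2 + a * e₁ * e₂ + b * e₂ ^ 2 = c) :
    (bMat m a b e₁ e₂ c).det = (-1) ^ (m + 1) * c ^ (m + 1) := by
  rw [bMat, Matrix.det_fromBlocks_zero₂₁, Matrix.det_mul, det_dMat, det_wMat, tMat,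
    Matrix.det_fin_two_of, ← he]
  ring

/-- The similitude as an element of the conformal group. -/
noncomputable def bsimM {a b e₁ e₂ : F} (c : Fˣ) (he : e₁ ^ 2 + a * e₁ * e₂ + b * e₂ ^ 2 = (c : F)) :
    ↥(GO (QMinus m F a b)) :=
  ⟨Matrix.GeneralLinearGroup.mkOfDetNeZero (bMat m a b e₁ e₂ (c : F)) (by
    rw [det_bMat m he]
    exact mul_ne_zero (pow_ne_zero _ (neg_ne_zero.2 one_ne_zero)) (pow_ne_zero _ c.ne_zero)),
    ⟨c, Q_bMat m he⟩⟩

theorem coe_bsimM {a b e₁ e₂ : F} (c : Fˣ) (he : e₁ ^ 2 + a * e₁ * e₂ + b * e₂ ^ 2 = (c : F)) :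
    (((bsimM m c he : ↥(GO (QMinus m F a b))) : GL ((Fin m ⊕ Fin m) ⊕ Fin 2) F) :
      Matrix ((Fin m ⊕ Fin m) ⊕ Fin 2) ((Fin m ⊕ Fin m) ⊕ Fin 2) F) = bMat m a b e₁ e₂ (c : F) := rfl

theorem bsimM_sq {a b e₁ e₂ : F} (c : Fˣ) (he : e₁ ^ 2 + a * e₁ * e₂ + b * e₂ ^ 2 = (c : F)) :
    bsimM m c he * bsimM m c he = scal (QMinus m F a b) c := by
  apply Subtype.ext
  apply Units.ext
  rw [coe_scal]
  exact bMat_sq m he

theorem mu_bsimM {a b e₁ e₂ : F} (hx : ∃ x, QMinus m F a b x = 1) (c : Fˣ)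
    (he : e₁ ^ 2 + a * e₁ * e₂ + b * e₂ ^ 2 = (c : F)) :
    mu (QMinus m F a b) hx (bsimM m c he) = c :=
  mu_eq _ hx _ _ (Q_bMat m he)

theorem delta_bsimM {a b e₁ e₂ : F} (hx : ∃ x, QMinus m F a b x = 1) (c : Fˣ)
    (he : e₁ ^ 2 + a * e₁ * e₂ + b * e₂ ^ 2 = (c : F)) :
    delta (QMinus m F a b) hx (m + 1) (bsimM m c he) = (-1) ^ (m + 1) := by
  rw [delta_apply, mu_bsimM]
  have : Matrix.GeneralLinearGroup.det ((bsimM m c he : ↥(GO (QMinus m F a b))) :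
      GL ((Fin m ⊕ Fin m) ⊕ Fin 2) F) = (-1) ^ (m + 1) * c ^ (m + 1) := by
    apply Units.ext
    rw [Matrix.GeneralLinearGroup.val_det_apply, coe_bsimM, det_bMat m he]
    simp
  rw [this, inv_pow, mul_assoc, mul_inv_cancel, mul_one]

/-- The anisotropic binary form is universal. -/
theorem exists_norm_eq [Fintype F] (h2 : (2 : F) ≠ 0) {a b : F}
    (hab : ∀ z₁ z₂ : F, z₁ ^ 2 + a * z₁ * z₂ + b * z₂ ^ 2 = 0 → z₁ = 0 ∧ z₂ = 0) (c : F) :
    ∃ e₁ e₂ : F, e₁ ^ 2 + a * e₁ * e₂ + b * e₂ ^ 2 = c := by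
  have hnd : (QuadraticMap.polarBilin (QMinus 0 F a b)).Nondegenerate := by
    apply nondegenerate_of_det_gram_ne_zero
    rw [det_gram_QMinus]
    apply mul_ne_zero (pow_ne_zero _ (neg_ne_zero.2 one_ne_zero))
    intro h
    apply not_isSquare_disc h2 hab
    have : a ^ 2 - 4 * b = 0 := by linear_combination -h
    rw [this]
    exact IsSquare.zero
  obtain ⟨x, hx⟩ := exists_Q_eq (QMinus 0 F a b) h2 hnd (by rw [card_minus]) c
  refine ⟨x (Sum.inr 0), x (Sum.inr 1), ?_⟩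
  rw [← hx, coe_QMinus]
  simp [quadFormMinus]

end Cfsg.Agent.Lib.Helper51OrthMinus2
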