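import Mathlib
import Cfsg.Agent.Lib.Helper18GamJ
import Cfsg.Agent.Lib.Helper51OrthMinus2

/-!
# Minus type in characteristic two: the inner-diagonal group is the inner group
-/

set_option autoImplicit false
set_option linter.unusedSectionVars false

namespace Cfsg.Agent.Lib.Helper18GamK

open Cfsg Matrix Module
open scoped MatrixGroups
open Cfsg.Agent.Lib.Helper49Orth Cfsg.Agent.Lib.Helper49CD Cfsg.Agent.Lib.Helper49Idx
  Cfsg.Agent.Lib.Helper49Forms Cfsg.Agent.Lib.Helper49All Cfsg.Agent.Lib.Helper49Fam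
  Cfsg.Agent.Lib.Helper49Dickson Cfsg.Agent.Lib.Helper49Gram Cfsg.Agent.Lib.Helper49Disc
  Cfsg.Agent.Lib.Helper18Hyp
  Cfsg.Agent.Lib.Helper51OrthAut Cfsg.Agent.Lib.Helper51OrthKer Cfsg.Agent.Lib.Helper51OrthIdx
  Cfsg.Agent.Lib.Helper51OrthIdx2 Cfsg.Agent.Lib.Helper51OrthIdx3 Cfsg.Agent.Lib.Helper51OrthIdx4
  Cfsg.Agent.Lib.Helper51OrthDiag Cfsg.Agent.Lib.Helper51OrthPar Cfsg.Agent.Lib.Helper51OrthInst
  Cfsg.Agent.Lib.Helper51OrthMinus Cfsg.Agent.Lib.Helper51OrthMinus2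
  Cfsg.Agent.Lib.Helper18GamA Cfsg.Agent.Lib.Helper18GamB Cfsg.Agent.Lib.Helper18GamC
  Cfsg.Agent.Lib.Helper18GamD
  Cfsg.Agent.Lib.Helper18GamE Cfsg.Agent.Lib.Helper18GamF Cfsg.Agent.Lib.Helper18GamG
  Cfsg.Agent.Lib.Helper18GamH Cfsg.Agent.Lib.Helper18GamI

section root

open Polynomial in
/-- An anisotropic binary form over a finite field becomes isotropic over a quadratic extension. -/
theorem exists_root {F K : Type*} [Field F] [Fintype F] [Field K] [Algebra F K]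
    (hK : finrank F K = 2) {a b : F} (hab : Aniso a b) :
    ∃ ρ : K, ρ ^ 2 + algebraMap F K a * ρ + algebraMap F K b = 0 := by
  have : Module.Finite F K := Module.finite_of_finrank_pos (by omega)
  obtain ⟨θ, hθ⟩ : ∃ θ : K, θ ∉ Set.range (algebraMap F K) := by
    by_contra hcon
    have h1 : (⊥ : Subalgebra F K) = ⊤ := by
      rw [eq_top_iff]
      intro x _
      rw [Algebra.mem_bot]
      by_contra hx
      exact hcon ⟨x, hx⟩
    have h2 := Subalgebra.finrank_bot (F := F) (E := K)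
    rw [h1, subalgebra_top_finrank_eq_submodule_top_finrank, finrank_top, hK] at h2
    omega
  have hint : IsIntegral F θ := Algebra.IsIntegral.isIntegral θ
  have hdeg : (minpoly F θ).natDegree = 2 := by
    have h1 : (minpoly F θ).natDegree ≤ 2 := hK ▸ minpoly.natDegree_le θ
    have h2 : (minpoly F θ).natDegree ≠ 1 := by
      intro h
      exact hθ ((minpoly.natDegree_eq_one_iff).1 h)
    have h3 : 0 < (minpoly F θ).natDegree := minpoly.natDegree_pos hint
    omega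
  have hmonic := minpoly.monic hint
  have hform : minpoly F θ = X ^ 2 + C ((minpoly F θ).coeff 1) * X + C ((minpoly F θ).coeff 0) := by
    have h1 := Polynomial.eq_quadratic_of_degree_le_two
      (p := minpoly F θ) (by rw [Polynomial.degree_eq_natDegree hmonic.ne_zero, hdeg]; rfl)
    have h2 : (minpoly F θ).coeff 2 = 1 := by
      have := hmonic.coeff_natDegree
      rwa [hdeg] at this
    rw [h2, map_one, one_mul] at h1
    exact h1
  set a₁ := (minpoly F θ).coeff 1 with ha₁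
  set b₁ := (minpoly F θ).coeff 0 with hb₁
  have hθ0 : θ ^ 2 + algebraMap F K a₁ * θ + algebraMap F K b₁ = 0 := by
    have := minpoly.aeval F θ
    rw [hform] at this
    simpa using this
  have hab₁ : Aniso a₁ b₁ := by
    intro z₁ z₂ h
    by_cases hz : z₂ = 0
    · subst hz
      refine ⟨?_, rfl⟩
      have : z₁ ^ 2 = 0 := by linear_combination h
      exact pow_eq_zero_iff (by norm_num) |>.1 this
    · exfalso
      have hroot : (minpoly F θ).IsRoot (z₁ / z₂) := by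
        rw [hform, IsRoot.def]
        simp only [eval_add, eval_pow, eval_X, eval_mul, eval_C]
        field_simp
        linear_combination h
      have := Polynomial.degree_eq_one_of_irreducible_of_root (minpoly.irreducible hint) hroot
      rw [Polynomial.degree_eq_natDegree hmonic.ne_zero, hdeg] at this
      exact absurd this (by decide)
  obtain ⟨s, t, ht, h1, h2⟩ := exists_st hab hab₁
  have ht' : algebraMap F K t ≠ 0 := (_root_.map_ne_zero _).2 ht
  refine ⟨(θ + algebraMap F K s) / algebraMap F K t, ?_⟩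
  rw [h1, h2] at hθ0
  simp only [map_add, map_mul, map_pow, map_ofNat] at hθ0
  field_simp
  linear_combination hθ0

end root

section par

variable {F : Type*} [Field F] [Fintype F] [CharP F 2]
variable {ι : Type} [Fintype ι] [DecidableEq ι] (Q : QuadraticForm F (ι → F))

theorem par_iso_two (hnd : (QuadraticMap.polarBilin Q).Nondegenerate) {n : ℕ}
    (hdim : finrank F (ι → F) = 2 * n) (hq : Fintype.card F ≠ 2 ∨ Fintype.card ι ≠ 4)
    (x : ↥(isometryGroup F ⇑Q))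
    {U : Submodule F (ι → F)} (hU : TS Q U) (hUm : finrank F U = n) :
    Even (n - finrank F (U ⊓ img Q x U : Submodule F (ι → F))) ↔ x ∈ Omega F ⇑Q := by
  obtain ⟨vs, hvs, rfl⟩ := exists_list_refl_two Q hnd hq x
  have h := parity_list Q hnd hdim hU hUm vs hvs
  rw [char_two_criterion Q hnd hq vs hvs]
  exact Nat.even_add.1 h

end par

section ext

variable {F : Type*} [Field F] [Fintype F] {F₀ : Type*} [Field F₀] [Fintype F₀]
variable {ι : Type} [Fintype ι] [DecidableEq ι]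
variable {Q : QuadraticForm F (ι → F)} {Q₀ : QuadraticForm F₀ (ι → F₀)} {j : F₀ →+* F}

theorem mapO_mem_Omega_iff [CharP F 2] [CharP F₀ 2] (hE : Ext Q Q₀ j)
    (hQ : (QuadraticMap.polarBilin Q).Nondegenerate)
    (hQ₀ : (QuadraticMap.polarBilin Q₀).Nondegenerate) (hcard : Fintype.card ι ≠ 4)
    (y : ↥(isometryGroup F₀ ⇑Q₀)) : mapO hE y ∈ Omega F ⇑Q ↔ y ∈ Omega F₀ ⇑Q₀ := by
  obtain ⟨vs, hvs, rfl⟩ := exists_list_refl_two Q₀ hQ₀ (Or.inr hcard) y
  rw [mapO_prod hE vs hvs, char_two_criterion Q₀ hQ₀ (Or.inr hcard) vs hvs,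
    char_two_criterion Q hQ (Or.inr hcard) _ (by
      intro w hw
      obtain ⟨v, hv, rfl⟩ := List.mem_map.1 hw
      exact ne_zero_jv hE (hvs v hv)), List.length_map]

theorem mapJ_mem_K0_iff [CharP F 2] [CharP F₀ 2] (hE : Ext Q Q₀ j)
    (hQ : (QuadraticMap.polarBilin Q).Nondegenerate)
    (hQ₀ : (QuadraticMap.polarBilin Q₀).Nondegenerate) (hcard : Fintype.card ι ≠ 4)
    (hx : ∃ x, Q x = 1) (hx₀ : ∃ x, Q₀ x = 1) (h : ↥(GO Q₀)) :
    mapJ hE h ∈ Om' Q ⊔ ZZ Q ↔ h ∈ Om' Q₀ ⊔ ZZ Q₀ := by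
  have htop : h ∈ OO' Q₀ ⊔ ZZ Q₀ := by
    rw [sup_eq_top_two Q₀ hx₀]
    exact Subgroup.mem_top _
  obtain ⟨w, ⟨y, rfl⟩, c, rfl⟩ := mem_sup_ZZ' Q₀ _ htop
  have e1 : ∀ (R : QuadraticForm F (ι → F)) (u : ↥(GO R)) (d : Fˣ),
      u * scal R d ∈ Om' R ⊔ ZZ R ↔ u ∈ Om' R ⊔ ZZ R := fun R u d =>
    Subgroup.mul_mem_cancel_right _ (Subgroup.mem_sup_right (scal_mem R d))
  have e2 : ∀ (u : ↥(GO Q₀)) (d : F₀ˣ),
      u * scal Q₀ d ∈ Om' Q₀ ⊔ ZZ Q₀ ↔ u ∈ Om' Q₀ ⊔ ZZ Q₀ := fun u d =>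
    Subgroup.mul_mem_cancel_right _ (Subgroup.mem_sup_right (scal_mem Q₀ d))
  rw [map_mul, mapJ_scal, e1, e2, ← incO_mapO]
  have e3 : incO Q (mapO hE y) ∈ Om' Q ⊔ ZZ Q ↔ incO Q (mapO hE y) ∈ Om' Q := by
    constructor
    · intro h1
      rw [← K0_inf_OO' Q hx]
      exact ⟨h1, ⟨_, rfl⟩⟩
    · exact fun h1 => Subgroup.mem_sup_left h1
  have e4 : incO Q₀ y ∈ Om' Q₀ ⊔ ZZ Q₀ ↔ incO Q₀ y ∈ Om' Q₀ := by
    constructor
    · intro h1
      rw [← K0_inf_OO' Q₀ hx₀]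
      exact ⟨h1, ⟨_, rfl⟩⟩
    · exact fun h1 => Subgroup.mem_sup_left h1
  rw [e3, e4, incO_mem_Om', incO_mem_Om', mapO_mem_Omega_iff hE hQ hQ₀ hcard]

/-- Characteristic two version of `preserves_ext`. -/
theorem preserves_ext_two [CharP F 2] [CharP F₀ 2] (hE : Ext Q Q₀ j)
    (hQ : (QuadraticMap.polarBilin Q).Nondegenerate)
    (hQ₀ : (QuadraticMap.polarBilin Q₀).Nondegenerate) {n : ℕ} (hcard : Fintype.card ι = 2 * n)
    (hcard4 : Fintype.card ι ≠ 4) {X0 : Submodule F (ι → F)} (hX0 : TS Q X0)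
    (hX0n : finrank F X0 = n) (hx₀ : ∃ x, Q₀ x = 1) (g : ↥(GO Q₀)) :
    PreservesSingularClasses ⇑Q (((g : GL ι F₀) : Matrix ι ι F₀).map j) ↔ g ∈ Om' Q₀ ⊔ ZZ Q₀ := by
  have hdim : finrank F (ι → F) = 2 * n := by rw [Module.finrank_fintype_fun_eq_card, hcard]
  have htop : g ∈ OO' Q₀ ⊔ ZZ Q₀ := by
    rw [sup_eq_top_two Q₀ hx₀]
    exact Subgroup.mem_top _
  obtain ⟨w, ⟨y, rfl⟩, c, rfl⟩ := mem_sup_ZZ' Q₀ _ htop
  have e2 : incO Q₀ y * scal Q₀ c ∈ Om' Q₀ ⊔ ZZ Q₀ ↔ incO Q₀ y ∈ Om' Q₀ ⊔ ZZ Q₀ :=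
    Subgroup.mul_mem_cancel_right _ (Subgroup.mem_sup_right (scal_mem Q₀ c))
  have e4 : incO Q₀ y ∈ Om' Q₀ ⊔ ZZ Q₀ ↔ incO Q₀ y ∈ Om' Q₀ := by
    constructor
    · intro h1
      rw [← K0_inf_OO' Q₀ hx₀]
      exact ⟨h1, ⟨_, rfl⟩⟩
    · exact fun h1 => Subgroup.mem_sup_left h1
  rw [e2, e4, incO_mem_Om', ← mapO_mem_Omega_iff hE hQ hQ₀ hcard4]
  have hmat : (((incO Q₀ y * scal Q₀ c : ↥(GO Q₀)) : GL ι F₀) : Matrix ι ι F₀).map j
      = j (c : F₀) • (((mapO hE y : ↥(isometryGroup F ⇑Q)) : GL ι F) : Matrix ι ι F) := by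
    rw [Subgroup.coe_mul, Units.val_mul, coe_scal, coe_incO, coe_mapO]
    ext a b
    simp
  have hjc : j (c : F₀) ≠ 0 := (map_ne_zero j).2 c.ne_zero
  have himg : ∀ U : Submodule F (ι → F),
      imageSubmodule ((((incO Q₀ y * scal Q₀ c : ↥(GO Q₀)) : GL ι F₀) : Matrix ι ι F₀).map j) U =
      img Q (mapO hE y) U := by
    intro U
    rw [hmat, image_smul hjc, image_iso]
  have hpar : ∀ U : Submodule F (ι → F), TS Q U → finrank F U = n →
      (SameParityClass U (imageSubmodule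
        ((((incO Q₀ y * scal Q₀ c : ↥(GO Q₀)) : GL ι F₀) : Matrix ι ι F₀).map j) U) ↔
        mapO hE y ∈ Omega F ⇑Q) := by
    intro U hU hUn
    rw [himg, ← par_iso_two Q hQ hdim (Or.inr hcard4) _ hU hUn]
    unfold SameParityClass
    rw [hUn]
  have hmax := isMax_iff Q hQ hdim hX0 hX0n
  constructor
  · intro h
    exact (hpar X0 hX0 hX0n).1 (h _ ((hmax _).2 ⟨hX0, hX0n⟩))
  · intro h U hU
    obtain ⟨hU1, hU2⟩ := (hmax U).1 hU
    exact (hpar U hU1 hU2).2 h

end ext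

section minus

universe u

variable {F : Type u} [Field F] [Fintype F] (m : ℕ)

theorem ext_minus {K : Type*} [Field K] (f : F →+* K) (a b : F) :
    Ext (QMinus m K (f a) (f b)) (QMinus m F a b) f := by
  intro v
  rw [coe_QMinus, coe_QMinus]
  simp [quadFormMinus]

theorem exists_one_minus (a b : F) : ∃ x, QMinus m F a b x = 1 := by
  refine ⟨Pi.single (Sum.inr 0) 1, ?_⟩
  rw [coe_QMinus]
  simp [quadFormMinus]

theorem key_two [CharP F 2] {K : Type*} [Field K] [Fintype K] [Algebra F K] (hK : finrank F K = 2)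
    (hm : 2 ≤ m) {a b : F} (hab : Aniso a b) (g : ↥(GO (QMinus m F a b))) :
    PreservesSingularClasses (quadFormMinus m K (algebraMap F K a) (algebraMap F K b))
      (((g : GL ((Fin m ⊕ Fin m) ⊕ Fin 2) F) : Matrix ((Fin m ⊕ Fin m) ⊕ Fin 2)
        ((Fin m ⊕ Fin m) ⊕ Fin 2) F).map (algebraMap F K)) ↔
      g ∈ Om' (QMinus m F a b) ⊔ ZZ (QMinus m F a b) := by
  have : CharP K 2 := (RingHom.charP_iff (algebraMap F K) (algebraMap F K).injective 2).1 inferInstance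
  have ha := aniso_a_ne_zero hab
  have hnd : (QuadraticMap.polarBilin (QMinus m K (algebraMap F K a) (algebraMap F K b))).Nondegenerate := by
    apply nondegenerate_of_det_gram_ne_zero
    rw [det_gram_QMinus]
    apply mul_ne_zero (pow_ne_zero _ (neg_ne_zero.2 one_ne_zero))
    have h4 : (4 : K) = 0 := by
      have : (4 : K) = 2 * 2 := by norm_num
      rw [this, CharTwo.two_eq_zero, mul_zero]
    rw [h4, zero_mul, zero_sub, neg_ne_zero]
    exact pow_ne_zero _ ((map_ne_zero _).2 ha)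
  obtain ⟨ρ, hρ⟩ := exists_root hK hab
  rw [← coe_QMinus]
  exact preserves_ext_two (ext_minus m (algebraMap F K) a b) hnd
    (Cfsg.Agent.Lib.Helper49Rank.QMinus_nondegenerate m hab) (card_minus m)
    (by rw [card_minus]; omega) (X0_TS m hρ) (X0_finrank m _) (exists_one_minus m a b) g

theorem preservesMinus_iff_two [CharP F 2] (hm : 2 ≤ m) {a b : F} (hab : Aniso a b)
    (g : ↥(GO (QMinus m F a b))) :
    PreservesSingularClassesMinus m a b ((g : GL ((Fin m ⊕ Fin m) ⊕ Fin 2) F) :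
      Matrix ((Fin m ⊕ Fin m) ⊕ Fin 2) ((Fin m ⊕ Fin m) ⊕ Fin 2) F) ↔
      g ∈ Om' (QMinus m F a b) ⊔ ZZ (QMinus m F a b) := by
  constructor
  · rintro ⟨K, _, _, hK, hP⟩
    have : Module.Finite F K := Module.finite_of_finrank_pos (by omega)
    have : Finite K := Module.finite_of_finite F
    have : Fintype K := Fintype.ofFinite K
    exact (key_two m hK hm hab g).1 hP
  · intro h
    obtain ⟨K, _, _, hK⟩ := exists_quadratic_ext hab
    have : Module.Finite F K := Module.finite_of_finrank_pos (by omega)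
    have : Finite K := Module.finite_of_finite F
    have : Fintype K := Fintype.ofFinite K
    exact ⟨K, _, _, hK, (key_two m hK hm hab g).2 h⟩

theorem inndiagMinusGen_eq_two [CharP F 2] (hm : 2 ≤ m) {a b : F} (hab : Aniso a b) :
    inndiagMinusGen m a b ⇑(QMinus m F a b) =
      (Om' (QMinus m F a b) ⊔ ZZ (QMinus m F a b)).map (cAut ⇑(QMinus m F a b)) :=
  autSubgroupOf_eq (QMinus m F a b)
    (fun g => PreservesSingularClassesMinus m a b
      (g : Matrix ((Fin m ⊕ Fin m) ⊕ Fin 2) ((Fin m ⊕ Fin m) ⊕ Fin 2) F)) _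
    (fun g => preservesMinus_iff_two m hm hab g)

end minus

end Cfsg.Agent.Lib.Helper18GamK
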