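import Mathlib
import Cfsg.Agent.Lib.Helper18GamK

/-!
# Field automorphisms of minus type groups: final abstract steps
-/

set_option autoImplicit false
set_option linter.unusedSectionVars false

namespace Cfsg.Agent.Lib.Helper18GamL

open Cfsg Matrix Module
open scoped MatrixGroups
open Cfsg.Agent.Lib.Helper49Orth Cfsg.Agent.Lib.Helper49Forms
  Cfsg.Agent.Lib.Helper51OrthAut Cfsg.Agent.Lib.Helper51OrthKer Cfsg.Agent.Lib.Helper51OrthIdx
  Cfsg.Agent.Lib.Helper51OrthIdx2 Cfsg.Agent.Lib.Helper51OrthIdx3 Cfsg.Agent.Lib.Helper51OrthIdx4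
  Cfsg.Agent.Lib.Helper51OrthDiag
  Cfsg.Agent.Lib.Helper18GamA Cfsg.Agent.Lib.Helper18GamB Cfsg.Agent.Lib.Helper18GamC
  Cfsg.Agent.Lib.Helper18GamD
  Cfsg.Agent.Lib.Helper18GamE Cfsg.Agent.Lib.Helper18GamF Cfsg.Agent.Lib.Helper18GamG
  Cfsg.Agent.Lib.Helper18GamH Cfsg.Agent.Lib.Helper18GamI Cfsg.Agent.Lib.Helper18GamJ
  Cfsg.Agent.Lib.Helper18GamK

variable {F : Type*} [Field F] [Fintype F] {F₀ : Type*} [Field F₀] [Fintype F₀]
variable {ι : Type} [Fintype ι] [DecidableEq ι]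

theorem K0_map_eq_Inn (Q : QuadraticForm F (ι → F)) :
    (Om' Q ⊔ ZZ Q).map (cAut ⇑Q) = Inn (POmega F ⇑Q) := by
  rw [Subgroup.map_sup, inn_eq]
  apply sup_eq_left.2
  rintro _ ⟨z, hz, rfl⟩
  rw [cAut_eq_one_of_scalar Q z hz]
  exact one_mem _

variable {Q Q' : QuadraticForm F (ι → F)} {Q₀ : QuadraticForm F₀ (ι → F₀)} {j : F₀ →+* F}
variable {σ : F ≃+* F}

theorem final (hQ' : (QuadraticMap.polarBilin Q').Nondegenerate)
    (hQ₀ : (QuadraticMap.polarBilin Q₀).Nondegenerate) (hn : 5 ≤ Fintype.card ι)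
    (hσ : Comm ⇑Q' σ) (hE : Ext Q' Q₀ j) (hj : ∀ a, σ a = a ↔ a ∈ Set.range j)
    (hx₀ : ∃ x, Q₀ x = 1) (ψ : POmega F ⇑Q ≃* POmega F ⇑Q') (x : MulAut (POmega F ⇑Q))
    (hx' : MulAut.congr ψ x = fA hσ) (N : Subgroup (MulAut (POmega F ⇑Q)))
    (D' : Subgroup ↥(GO Q')) (D₀ : Subgroup ↥(GO Q₀))
    (hN : N.map (MulAut.congr ψ).toMonoidHom = D'.map (cAut ⇑Q'))
    (hZ : ZZ Q' ≤ D') (hO : Om' Q' ≤ D') (hD : ∀ h, mapJ hE h ∈ D' ↔ h ∈ D₀)
    (hle : D' ≤ (Om' Q' ⊔ ZZ Q') ⊔ D₀.map (mapJ hE)) :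
    Nonempty (↥(N ⊓ Subgroup.centralizer {x}) ≃* ↥(D₀.map (cAut ⇑Q₀))) ∧
      splitClassCount N (Inn (POmega F ⇑Q)) x = 1 := by
  constructor
  · obtain ⟨e1⟩ := centralizer_map_equiv (MulAut.congr ψ) N x
    rw [hN, hx'] at e1
    obtain ⟨e2⟩ := cent_equiv hQ' hQ₀ hn hσ hE hj hx₀ D' D₀ hZ hD
    exact ⟨e1.trans e2⟩
  · rw [← splitClassCount_map (MulAut.congr ψ) N (Inn (POmega F ⇑Q)) x, hN, map_Inn, hx',
      split_eq hQ' hn hσ hE hj hx₀ D' D₀ hZ hO hD, Subgroup.relIndex_eq_one]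
    exact hle

section cg

variable {g₀ : GL ι F}

theorem mu_cg (h : IsIso ⇑Q ⇑Q' g₀) (hx : ∃ x, Q x = 1) (hx' : ∃ x, Q' x = 1) (s : ↥(GO Q')) :
    mu Q hx (cg h s) = mu Q' hx' s :=
  mu_eq Q hx _ _ (fun v => h.conj_sim (mu_spec Q' hx' s) v)

theorem delta_cg (h : IsIso ⇑Q ⇑Q' g₀) (hx : ∃ x, Q x = 1) (hx' : ∃ x, Q' x = 1) (n : ℕ)
    (s : ↥(GO Q')) : delta Q hx n (cg h s) = delta Q' hx' n s := by
  rw [delta_apply, delta_apply, mu_cg h hx hx', coe_cg, map_mul, map_mul, map_inv,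
    mul_comm (Matrix.GeneralLinearGroup.det g₀), mul_inv_cancel_right]

theorem map_cg_ker_delta (h : IsIso ⇑Q ⇑Q' g₀) (hx : ∃ x, Q x = 1) (hx' : ∃ x, Q' x = 1) (n : ℕ) :
    (delta Q' hx' n).ker.map (cg h) = (delta Q hx n).ker := by
  ext g
  constructor
  · rintro ⟨s, hs, rfl⟩
    rw [MonoidHom.mem_ker, delta_cg h hx hx']
    exact hs
  · intro hg
    obtain ⟨s, rfl⟩ := cg_surjective h g
    refine ⟨s, ?_, rfl⟩
    rw [MonoidHom.mem_ker, delta_cg h hx hx'] at hg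
    exact hg

end cg

/-- The order of a field automorphism fixing the coefficients of an anisotropic binary form is not
two. -/
theorem not_card_sq {a₀ b₀ : F₀} (hab : Aniso (j a₀) (j b₀))
    (hcard : Fintype.card F = Fintype.card F₀ ^ 2) : False := by
  let _ := j.toAlgebra
  have hfin : finrank F₀ F = 2 := by
    have h1 := Module.card_eq_pow_finrank (K := F₀) (V := F)
    rw [hcard] at h1
    exact (Nat.pow_right_injective (Fintype.one_lt_card (α := F₀)) h1).symm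
  have hab₀ : Aniso a₀ b₀ := by
    intro z₁ z₂ h
    have := hab (j z₁) (j z₂) (by
      rw [← map_pow, ← map_pow, ← map_mul, ← map_mul, ← map_mul, ← map_add, ← map_add, h, map_zero])
    exact ⟨(map_eq_zero j).1 this.1, (map_eq_zero j).1 this.2⟩
  obtain ⟨ρ, hρ⟩ := exists_root hfin hab₀
  have hρ' : ρ ^ 2 + j a₀ * ρ + j b₀ = 0 := hρ
  have := hab ρ 1 (by linear_combination hρ')
  exact one_ne_zero this.2

end Cfsg.Agent.Lib.Helper18GamL
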