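import Mathlib
import Cfsg.Agent.Lib.Helper18GamL
import Cfsg.Agent.Lib.Helper42H90
import Cfsg.Agent.Lib.Helper42Quad

/-!
# The Lang step for semisimilarities of a quadratic form

An element `y = (g, σ)` of `ΓO(Q)` whose `r`-th power (`r` the order of `σ`) acts trivially on `PΩ`
is, after a change of coordinates `M`, the standard field automorphism of a form `ν⁻¹ Q ∘ M`
commuting with `σ`; such a form descends to the fixed field.
-/

set_option autoImplicit false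
set_option linter.unusedSectionVars false

namespace Cfsg.Agent.Lib.Helper18LangA

open Cfsg Matrix Module
open scoped MatrixGroups
open Cfsg.Agent.Lib.Helper49Orth Cfsg.Agent.Lib.Helper49Forms
  Cfsg.Agent.Lib.Helper51OrthAut Cfsg.Agent.Lib.Helper51OrthKer Cfsg.Agent.Lib.Helper51OrthIdx
  Cfsg.Agent.Lib.Helper18GamA Cfsg.Agent.Lib.Helper18GamB Cfsg.Agent.Lib.Helper18GamC
  Cfsg.Agent.Lib.Helper18GamE Cfsg.Agent.Lib.Helper18GamF
open Cfsg.Agent.Lib.Helper50H90 (Nk hilbert90_scalar)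
open Cfsg.Agent.Lib.Helper42H90 (NkM hilbert90_PGL)

variable {F : Type*} [Field F] {ι : Type} [Fintype ι] [DecidableEq ι]

theorem pow_left_right (y : GamL ι F) (k : ℕ) :
    ((y ^ k).left : Matrix ι ι F) = NkM y.right (y.left : Matrix ι ι F) k ∧
      (y ^ k).right = y.right ^ k := by
  induction k with
  | zero => exact ⟨rfl, rfl⟩
  | succ k ih =>
    constructor
    · rw [pow_succ', SemidirectProduct.mul_left, Units.val_mul, coe_mapAut, ih.1]
      rfl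
    · rw [pow_succ', SemidirectProduct.mul_right, ih.2, pow_succ']

/-- A form which is semi-invariant under `σ` with multiplier `μ`. -/
theorem semi_pow {σ : F ≃+* F} {q : (ι → F) → F} {μ : F}
    (h : ∀ v, q (fun i => σ (v i)) = μ * σ (q v)) (k : ℕ) (v : ι → F) :
    q (fun i => (σ ^ k) (v i)) = Nk σ μ k * (σ ^ k) (q v) := by
  induction k with
  | zero => simp [Nk]
  | succ k ih =>
    have e : (fun i => (σ ^ (k + 1)) (v i)) = fun i => σ ((fun i => (σ ^ k) (v i)) i) := by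
      funext i
      rw [pow_succ']
      rfl
    rw [e, h, ih, map_mul, Nk, pow_succ', mul_assoc]
    rfl

/-- The form `v ↦ ν Q(M v)`. -/
noncomputable def tw (Q : QuadraticForm F (ι → F)) (M : GL ι F) (ν : Fˣ) :
    QuadraticForm F (ι → F) := (ν : F) • Q.comp (Matrix.toLin' (M : Matrix ι ι F))

theorem tw_apply (Q : QuadraticForm F (ι → F)) (M : GL ι F) (ν : Fˣ) (v : ι → F) :
    tw Q M ν v = (ν : F) * Q ((M : Matrix ι ι F) *ᵥ v) := rfl

theorem polar_tw (Q : QuadraticForm F (ι → F)) (M : GL ι F) (ν : Fˣ) (v w : ι → F) :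
    QuadraticMap.polar ⇑(tw Q M ν) v w
      = (ν : F) * QuadraticMap.polar ⇑Q ((M : Matrix ι ι F) *ᵥ v) ((M : Matrix ι ι F) *ᵥ w) := by
  unfold QuadraticMap.polar
  rw [tw_apply, tw_apply, tw_apply, Matrix.mulVec_add]
  ring

theorem tw_nondeg {Q : QuadraticForm F (ι → F)} (hQ : (QuadraticMap.polarBilin Q).Nondegenerate)
    (M : GL ι F) (ν : Fˣ) : (QuadraticMap.polarBilin (tw Q M ν)).Nondegenerate := by
  rw [Cfsg.Agent.Lib.Helper42Quad.nondeg_iff] at hQ ⊢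
  intro x hx
  have h1 : (M : Matrix ι ι F) *ᵥ x = 0 := by
    apply hQ
    intro y
    have := hx (((M⁻¹ : GL ι F) : Matrix ι ι F) *ᵥ y)
    rw [polar_tw, Matrix.mulVec_mulVec, ← Units.val_mul, mul_inv_cancel, Units.val_one,
      Matrix.one_mulVec] at this
    exact (mul_eq_zero.1 this).resolve_left ν.ne_zero
  have h2 := congrArg (fun w => ((M⁻¹ : GL ι F) : Matrix ι ι F) *ᵥ w) h1
  simp only [Matrix.mulVec_mulVec, ← Units.val_mul, inv_mul_cancel, Units.val_one,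
    Matrix.one_mulVec, Matrix.mulVec_zero] at h2
  exact h2

variable [Fintype F] {Q : QuadraticForm F (ι → F)}

/-- **Lang step.** -/
theorem lang (hQ : (QuadraticMap.polarBilin Q).Nondegenerate) (hn : 5 ≤ Fintype.card ι)
    (hx : ∃ x, Q x ≠ 0) (y : ↥(GamO ⇑Q)) (r : ℕ) (hr : orderOf (y : GamL ι F).right = r)
    (hy : sAut ⇑Q y ^ r = 1) :
    ∃ (M : GL ι F) (c ν : Fˣ),
      ((c : F) • ((y : GamL ι F).left : Matrix ι ι F)) * (M : Matrix ι ι F).map (y : GamL ι F).right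
        = (M : Matrix ι ι F) ∧
      Comm ⇑(tw Q M ν) (y : GamL ι F).right := by
  have : Finite (F ≃+* F) :=
    Finite.of_injective (fun τ : F ≃+* F => (τ : F → F)) DFunLike.coe_injective
  set σ := (y : GamL ι F).right with hσ
  set g := (y : GamL ι F).left with hg
  have hr0 : 0 < r := by rw [← hr]; exact orderOf_pos σ
  have hσr : σ ^ r = 1 := by rw [← hr]; exact pow_orderOf_eq_one σ
  obtain ⟨i0⟩ : Nonempty ι := Fintype.card_pos_iff.1 (by omega)
  have h1 : y ^ r ∈ (sAut ⇑Q).ker := by rw [MonoidHom.mem_ker, map_pow, hy]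
  rw [ker_sAut Q hQ hn] at h1
  obtain ⟨z, hz, hzz⟩ := h1
  obtain ⟨z, rfl⟩ := exists_scal Q hz
  have hN : NkM σ (g : Matrix ι ι F) r = (z : F) • 1 := by
    rw [← (pow_left_right (y : GamL ι F) r).1, ← Subgroup.coe_pow, ← hzz, ← coe_scal Q]
    rfl
  obtain ⟨c, M, M', hc, hM1, hM2, hM⟩ := hilbert90_PGL σ r hr hr0 (g : Matrix ι ι F)
    ((g⁻¹ : GL ι F) : Matrix ι ι F) (by rw [← Units.val_mul, mul_inv_cancel, Units.val_one]) i0 z hN
  obtain ⟨μ, hμ⟩ := (mem_GamO' ⇑Q).1 y.2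
  have hsemi : ∀ v, Q (M *ᵥ (fun i => σ (v i))) = (c * c * μ) * σ (Q (M *ᵥ v)) := by
    intro v
    have e1 : M *ᵥ (fun i => σ (v i)) = c • act (y : GamL ι F) (M *ᵥ v) := by
      conv_lhs => rw [← hM]
      rw [← Matrix.mulVec_mulVec, Matrix.smul_mulVec, ← map_mulVec']
      rfl
    rw [e1, QuadraticMap.map_smul, hμ, smul_eq_mul, mul_assoc, mul_assoc, mul_assoc]
  obtain ⟨x, hx⟩ := hx
  have hNk : Nk σ (c * c * μ) r = 1 := by
    have := semi_pow (q := fun v => Q (M *ᵥ v)) hsemi r (M' *ᵥ x)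
    rw [hσr] at this
    have this' : Q (M *ᵥ (M' *ᵥ x)) = Nk σ (c * c * μ) r * Q (M *ᵥ (M' *ᵥ x)) := this
    rw [Matrix.mulVec_mulVec, hM1, Matrix.one_mulVec] at this'
    exact (mul_right_cancel₀ hx (by rw [one_mul]; exact this')).symm
  obtain ⟨ν, hν, e2⟩ := hilbert90_scalar σ r hr hr0 _ hNk
  refine ⟨⟨M, M', hM1, hM2⟩, Units.mk0 c hc, (Units.mk0 ν hν)⁻¹, hM, ?_⟩
  intro v
  change ((Units.mk0 ν hν)⁻¹ : Fˣ) * Q (M *ᵥ (fun i => σ (v i)))
    = σ (((Units.mk0 ν hν)⁻¹ : Fˣ) * Q (M *ᵥ v))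
  rw [hsemi, Units.val_inv_eq_inv_val, Units.val_mk0, map_mul, map_inv₀]
  have hσν : σ ν ≠ 0 := (map_ne_zero σ).2 hν
  field_simp
  linear_combination σ (Q (M *ᵥ v)) * e2

section descent

variable {F₀ : Type*} [Field F₀] {j : F₀ →+* F} {σ : F ≃+* F}

omit [Fintype F] in
/-- A form commuting with `σ` descends to the fixed field. -/
theorem exists_descent (Q₂ : QuadraticForm F (ι → F)) (hc : Comm ⇑Q₂ σ)
    (hj : ∀ a, σ a = a ↔ a ∈ Set.range j) : ∃ Q₂₀ : QuadraticForm F₀ (ι → F₀), Ext Q₂ Q₂₀ j := by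
  have h1 : ∀ v : ι → F₀, ∃ d, j d = Q₂ (fun i => j (v i)) := by
    intro v
    apply (hj _).1
    rw [← hc]
    congr 1
    funext i
    exact (hj _).2 ⟨_, rfl⟩
  choose q hq using h1
  have hadd : ∀ v w : ι → F₀, (fun i => j ((v + w) i)) = (fun i => j (v i)) + fun i => j (w i) := by
    intro v w
    funext i
    simp
  have hsmul : ∀ (a : F₀) (v : ι → F₀), (fun i => j ((a • v) i)) = j a • fun i => j (v i) := by
    intro a v
    funext i
    simp
  have hpol : ∀ v w : ι → F₀, j (q (v + w) - q v - q w)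
      = QuadraticMap.polar ⇑Q₂ (fun i => j (v i)) (fun i => j (w i)) := by
    intro v w
    rw [map_sub, map_sub, hq, hq, hq, hadd]
    rfl
  let B : LinearMap.BilinMap F₀ (ι → F₀) F₀ := LinearMap.mk₂ F₀ (fun v w => q (v + w) - q v - q w)
    (fun v v' w => by
      apply j.injective
      rw [map_add, hpol, hpol, hpol, hadd, QuadraticMap.polar_add_left])
    (fun a v w => by
      apply j.injective
      rw [smul_eq_mul, map_mul, hpol, hpol, hsmul, QuadraticMap.polar_smul_left, smul_eq_mul])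
    (fun v w w' => by
      apply j.injective
      rw [map_add, hpol, hpol, hpol, hadd, QuadraticMap.polar_add_right])
    (fun a v w => by
      apply j.injective
      rw [smul_eq_mul, map_mul, hpol, hpol, hsmul, QuadraticMap.polar_smul_right, smul_eq_mul])
  refine ⟨⟨q, fun a v => ?_, ⟨B, fun v w => ?_⟩⟩, fun v => (hq v).symm⟩
  · apply j.injective
    rw [smul_eq_mul, map_mul, map_mul, hq, hq, hsmul, QuadraticMap.map_smul, smul_eq_mul]
  · change q (v + w) = q v + q w + (q (v + w) - q v - q w)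
    ring

omit [Fintype F] in
theorem ext_polar {Q₂ : QuadraticForm F (ι → F)} {Q₂₀ : QuadraticForm F₀ (ι → F₀)}
    (hE : Ext Q₂ Q₂₀ j) (v w : ι → F₀) :
    QuadraticMap.polar ⇑Q₂ (fun i => j (v i)) (fun i => j (w i))
      = j (QuadraticMap.polar ⇑Q₂₀ v w) := by
  unfold QuadraticMap.polar
  rw [map_sub, map_sub, ← hE, ← hE, ← hE]
  congr 3
  funext i
  simp

omit [Fintype F] in
theorem ext_nondeg {Q₂ : QuadraticForm F (ι → F)} {Q₂₀ : QuadraticForm F₀ (ι → F₀)}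
    (hE : Ext Q₂ Q₂₀ j) (h : (QuadraticMap.polarBilin Q₂).Nondegenerate) :
    (QuadraticMap.polarBilin Q₂₀).Nondegenerate := by
  rw [Cfsg.Agent.Lib.Helper42Quad.nondeg_iff] at h ⊢
  intro x hx
  have h1 : (fun i => j (x i)) = 0 := by
    apply h
    intro y
    have h2 : QuadraticMap.polarBilin Q₂ (fun i => j (x i)) = 0 := by
      apply (Pi.basisFun F ι).ext
      intro k
      rw [Pi.basisFun_apply, QuadraticMap.polarBilin_apply_apply, ← map_single (j := j), ext_polar hE,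
        hx, map_zero]
      rfl
    have := congrArg (fun f => f y) h2
    exact this
  funext i
  have := congrFun h1 i
  exact (map_eq_zero j).1 this

omit [Fintype F] in
theorem ext_sim2 {Q₂ : QuadraticForm F (ι → F)} {Q₂₀ Q₀ : QuadraticForm F₀ (ι → F₀)}
    (hE₂ : Ext Q₂ Q₂₀ j) (hE : Ext Q Q₀ j) (P : Matrix ι ι F₀) (c : F₀)
    (h : ∀ v, Q₂₀ (P *ᵥ v) = c * Q₀ v) (v : ι → F) : Q₂ (P.map j *ᵥ v) = j c * Q v := by
  have key : ∀ w : ι → F₀, Q₂ (P.map j *ᵥ (fun i => j (w i))) = j c * Q (fun i => j (w i)) := by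
    intro w
    rw [map_mulVec_j, hE₂, hE, h, map_mul]
  have := qf_ext (Q₂.comp (Matrix.toLin' (P.map j))) (j c • Q)
    (fun i => by
      rw [QuadraticMap.comp_apply, Matrix.toLin'_apply, _root_.smul_apply, smul_eq_mul,
        ← map_single (j := j), key])
    (fun i k => by
      have e : (Pi.single i 1 + Pi.single k 1 : ι → F)
          = fun l => j ((Pi.single i 1 + Pi.single k 1 : ι → F₀) l) := by
        rw [← map_single (j := j) i, ← map_single (j := j) k]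
        funext l
        simp
      rw [QuadraticMap.comp_apply, Matrix.toLin'_apply, _root_.smul_apply, smul_eq_mul, e, key])
    v
  rw [QuadraticMap.comp_apply, Matrix.toLin'_apply, _root_.smul_apply, smul_eq_mul] at this
  exact this

variable {Q₀ : QuadraticForm F₀ (ι → F₀)}

omit [Fintype F] in
/-- If the descended twisted form is similar to `Q₀`, the semisimilarity is conjugate to the
standard field automorphism. -/
theorem conj_of_iso (hσ : Comm ⇑Q σ) (hE : Ext Q Q₀ j) (hj : ∀ a, σ a = a ↔ a ∈ Set.range j)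
    (y : ↥(GamO ⇑Q)) (hyσ : (y : GamL ι F).right = σ) (M : GL ι F) (c ν : Fˣ)
    (hM : ((c : F) • ((y : GamL ι F).left : Matrix ι ι F)) * (M : Matrix ι ι F).map σ
      = (M : Matrix ι ι F))
    (Q₂₀ : QuadraticForm F₀ (ι → F₀)) (hE₂ : Ext (tw Q M ν) Q₂₀ j)
    (P : GL ι F₀) (c₀ : F₀ˣ) (hP : ∀ v, Q₂₀ ((P : Matrix ι ι F₀) *ᵥ v) = (c₀ : F₀) * Q₀ v) :
    ∃ h : ↥(GO Q), inlO ⇑Q h * fS hσ * (inlO ⇑Q h)⁻¹ = inlO ⇑Q (scal Q c) * y := by
  have h1 := ext_sim2 hE₂ hE (P : Matrix ι ι F₀) c₀ hP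
  refine ⟨⟨M * Matrix.GeneralLinearGroup.map j P, ν⁻¹ * Units.map (j : F₀ →* F) c₀, fun v => ?_⟩, ?_⟩
  · have h2 := h1 v
    rw [tw_apply] at h2
    rw [Units.val_mul, ← Matrix.mulVec_mulVec, Units.val_mul, Units.val_inv_eq_inv_val, mul_assoc]
    change Q ((M : Matrix ι ι F) *ᵥ ((P : Matrix ι ι F₀).map j *ᵥ v)) = _ * (j c₀ * Q v)
    rw [← h2, inv_mul_cancel_left₀ ν.ne_zero]
  · rw [mul_inv_eq_iff_eq_mul]
    apply Subtype.ext
    apply SemidirectProduct.ext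
    · change (M * Matrix.GeneralLinearGroup.map j P) * mapAut (1 : F ≃+* F) (1 : GL ι F) =
        ((scal Q c : ↥(GO Q)) : GL ι F) * mapAut (1 : F ≃+* F) (y : GamL ι F).left *
          mapAut ((1 : F ≃+* F) * (y : GamL ι F).right) (M * Matrix.GeneralLinearGroup.map j P)
      rw [map_one, mul_one, map_one, MulAut.one_apply, one_mul, hyσ]
      apply Units.ext
      rw [Units.val_mul, Units.val_mul, Units.val_mul, coe_mapAut, coe_scal, Units.val_mul]
      have e1 : ((M : Matrix ι ι F) * ((Matrix.GeneralLinearGroup.map j P : GL ι F) :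
          Matrix ι ι F)).map σ = (M : Matrix ι ι F).map σ *
            ((Matrix.GeneralLinearGroup.map j P : GL ι F) : Matrix ι ι F) := by
        have := Matrix.map_mul (f := (σ : F →+* F)) (L := (M : Matrix ι ι F))
          (M := ((Matrix.GeneralLinearGroup.map j P : GL ι F) : Matrix ι ι F))
        simp only [RingHom.coe_coe] at this
        rw [this]
        congr 1
        ext a b
        exact (hj _).2 ⟨_, rfl⟩
      rw [e1, ← mul_assoc]
      congr 1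
      conv_lhs => rw [← hM]
      simp
    · change (1 : F ≃+* F) * σ = 1 * (y : GamL ι F).right * 1
      rw [hyσ, mul_one]

/-- **Lang step, final form**: conjugacy to the standard field automorphism under a subgroup of index
two of the conformal group, given the classification of the descended forms. -/
theorem lang_conj (hQ : (QuadraticMap.polarBilin Q).Nondegenerate) (hn : 5 ≤ Fintype.card ι)
    (hx : ∃ x, Q x ≠ 0) (hσ : Comm ⇑Q σ) (hE : Ext Q Q₀ j) (hj : ∀ a, σ a = a ↔ a ∈ Set.range j)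
    (y : ↥(GamO ⇑Q)) (hyσ : (y : GamL ι F).right = σ) (r : ℕ) (hr : orderOf σ = r)
    (hy : sAut ⇑Q y ^ r = 1)
    (hcl : ∀ (M : GL ι F) (ν : Fˣ) (Q₂₀ : QuadraticForm F₀ (ι → F₀)), Ext (tw Q M ν) Q₂₀ j →
      (QuadraticMap.polarBilin Q₂₀).Nondegenerate →
      ∃ (P : GL ι F₀) (c₀ : F₀ˣ), ∀ v, Q₂₀ ((P : Matrix ι ι F₀) *ᵥ v) = (c₀ : F₀) * Q₀ v)
    (D : Subgroup ↥(GO Q)) (hD : D.index = 2) (t : ↥(GO Q₀)) (ht : mapJ hE t ∉ D) :
    ∃ h ∈ D, cAut ⇑Q h * fA hσ * (cAut ⇑Q h)⁻¹ = sAut ⇑Q y := by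
  subst hyσ
  obtain ⟨M, c, ν, hM, hcomm⟩ := lang hQ hn hx y r hr hy
  obtain ⟨Q₂₀, hE₂⟩ := exists_descent (tw Q M ν) hcomm hj
  obtain ⟨P, c₀, hP⟩ := hcl M ν Q₂₀ hE₂ (ext_nondeg hE₂ (tw_nondeg hQ M ν))
  obtain ⟨h, hh⟩ := conj_of_iso hσ hE hj y rfl M c ν hM Q₂₀ hE₂ P c₀ hP
  have h1 : cAut ⇑Q h * fA hσ * (cAut ⇑Q h)⁻¹ = sAut ⇑Q y := by
    have := congrArg (sAut ⇑Q) hh
    rw [map_mul, map_mul, map_inv, map_mul, sAut_inlO, sAut_inlO,
      cAut_eq_one_of_scalar Q _ (scal_mem Q c), one_mul] at this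
    exact this
  by_cases hhD : h ∈ D
  · exact ⟨h, hhD, h1⟩
  · refine ⟨h * mapJ hE t, (Subgroup.mul_mem_iff_of_index_two hD).2 ⟨fun h' => absurd h' hhD,
      fun h' => absurd h' ht⟩, ?_⟩
    rw [← h1, map_mul, _root_.mul_inv_rev]
    have h2 : cAut ⇑Q (mapJ hE t) * fA hσ * (cAut ⇑Q (mapJ hE t))⁻¹ = fA hσ := by
      rw [mul_inv_eq_iff_eq_mul, ← sAut_inlO]
      unfold fA
      rw [← map_mul, ← map_mul, fS_comm_mapJ hσ hE hj]
    calc cAut ⇑Q h * cAut ⇑Q (mapJ hE t) * fA hσ * ((cAut ⇑Q (mapJ hE t))⁻¹ * (cAut ⇑Q h)⁻¹)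
        = cAut ⇑Q h * (cAut ⇑Q (mapJ hE t) * fA hσ * (cAut ⇑Q (mapJ hE t))⁻¹) * (cAut ⇑Q h)⁻¹ := by
          group
      _ = _ := by rw [h2]

/-- Transported form of `lang_conj`. -/
theorem final_conj {Q' : QuadraticForm F (ι → F)}
    (hQ : (QuadraticMap.polarBilin Q).Nondegenerate) (hn : 5 ≤ Fintype.card ι)
    (hx : ∃ x, Q x ≠ 0) (hσ : Comm ⇑Q σ) (hE : Ext Q Q₀ j) (hj : ∀ a, σ a = a ↔ a ∈ Set.range j)
    (ψ : POmega F ⇑Q' ≃* POmega F ⇑Q) (x δ : MulAut (POmega F ⇑Q'))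
    (hx' : MulAut.congr ψ x = fA hσ) (N : Subgroup (MulAut (POmega F ⇑Q')))
    (D : Subgroup ↥(GO Q)) (D₀ : Subgroup ↥(GO Q₀))
    (hN : N.map (MulAut.congr ψ).toMonoidHom = D.map (cAut ⇑Q))
    (hD : ∀ h, mapJ hE h ∈ D ↔ h ∈ D₀) (hi : D.index = 2) (hi₀ : D₀ ≠ ⊤)
    (hcl : ∀ (M : GL ι F) (ν : Fˣ) (Q₂₀ : QuadraticForm F₀ (ι → F₀)), Ext (tw Q M ν) Q₂₀ j →
      (QuadraticMap.polarBilin Q₂₀).Nondegenerate →
      ∃ (P : GL ι F₀) (c₀ : F₀ˣ), ∀ v, Q₂₀ ((P : Matrix ι ι F₀) *ᵥ v) = (c₀ : F₀) * Q₀ v)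
    (r : ℕ) (hr : orderOf σ = r) (hδ : δ ∈ N) (hord : orderOf (δ * x) = r) :
    IsConjUnder N x (δ * x) := by
  rw [Cfsg.Agent.Lib.Helper18GamI.isConjUnder_map (MulAut.congr ψ), hN, map_mul, hx']
  obtain ⟨g, hg, hgδ⟩ : MulAut.congr ψ δ ∈ D.map (cAut ⇑Q) := by
    rw [← hN]
    exact ⟨δ, hδ, rfl⟩
  obtain ⟨t, ht⟩ : ∃ t, t ∉ D₀ := by
    by_contra hcon
    push Not at hcon
    exact hi₀ (eq_top_iff.2 fun t _ => hcon t)
  have hy : sAut ⇑Q (inlO ⇑Q g * fS hσ) = MulAut.congr ψ δ * fA hσ := by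
    rw [map_mul, sAut_inlO, hgδ]
    rfl
  obtain ⟨h, hh, e⟩ := lang_conj hQ hn hx hσ hE hj (inlO ⇑Q g * fS hσ)
    (by
      change (1 : F ≃+* F) * σ = σ
      rw [one_mul]) r hr
    (by
      rw [hy, ← hx', ← map_mul, ← map_pow, ← hord, pow_orderOf_eq_one, map_one]) hcl D hi t
    (fun h' => ht ((hD t).1 h'))
  exact ⟨cAut ⇑Q h, ⟨h, hh, rfl⟩, by rw [e, hy]⟩

end descent

end Cfsg.Agent.Lib.Helper18LangA
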