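import Mathlib
import Cfsg.Agent.Lib.Helper18LangA
import Cfsg.Agent.Lib.Helper42OInv2

/-!
# Classification of the descended forms: minus type
-/

set_option autoImplicit false
set_option linter.unusedSectionVars false

namespace Cfsg.Agent.Lib.Helper18LangB

open Cfsg Matrix Module
open scoped MatrixGroups
open Cfsg.Agent.Lib.Helper49Orth Cfsg.Agent.Lib.Helper49Forms Cfsg.Agent.Lib.Helper49Disc
  Cfsg.Agent.Lib.Helper49Gram
  Cfsg.Agent.Lib.Helper51OrthAut Cfsg.Agent.Lib.Helper51OrthKer Cfsg.Agent.Lib.Helper51OrthIdx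
  Cfsg.Agent.Lib.Helper18GamA Cfsg.Agent.Lib.Helper18GamB Cfsg.Agent.Lib.Helper18GamC
  Cfsg.Agent.Lib.Helper18GamD
  Cfsg.Agent.Lib.Helper18GamE Cfsg.Agent.Lib.Helper18GamF Cfsg.Agent.Lib.Helper18LangA
  Cfsg.Agent.Lib.Helper42Quad Cfsg.Agent.Lib.Helper18Hyp

section general

variable {F : Type*} [Field F] {V : Type*} [AddCommGroup V] [Module F V]

/-- A hyperbolic family spans a totally singular subspace. -/
theorem hyp_TS (Q : QuadraticForm F V) {k : ℕ} (e f : Fin k → V) (h : Hyp Q e f) :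
    ∃ W : Submodule F V, TS Q W ∧ finrank F W = k := by
  have hli : LinearIndependent F e := by
    have := li_sum Q e f h (fun i : Fin 0 => i.elim0) (fun i => i.elim0) linearIndependent_empty_type
    exact this.comp (fun i => Sum.inl (Sum.inl i)) (fun a b hab => by simpa using hab)
  refine ⟨Submodule.span F (Set.range e), ?_, ?_⟩
  · intro w hw
    obtain ⟨c, rfl⟩ := (Submodule.mem_span_range_iff_exists_fun F).1 hw
    have := qf_eq_zero (Q.comp (Fintype.linearCombination F e))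
      (fun i => by
        rw [QuadraticMap.comp_apply, Fintype.linearCombination_apply_single, one_smul, h.1])
      (fun i k => by
        unfold QuadraticMap.polar
        rw [QuadraticMap.comp_apply, QuadraticMap.comp_apply, QuadraticMap.comp_apply, map_add,
          Fintype.linearCombination_apply_single, Fintype.linearCombination_apply_single, one_smul,
          one_smul]
        exact h.2.2.2.1 i k) c
    rw [QuadraticMap.comp_apply, Fintype.linearCombination_apply] at this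
    exact this
  · rw [finrank_span_eq_card hli, Fintype.card_fin]

end general

variable {F : Type*} [Field F] {F₀ : Type*} [Field F₀] {j : F₀ →+* F}
variable {ι : Type} [Fintype ι] [DecidableEq ι]

theorem hyp_ext {Q₂ : QuadraticForm F (ι → F)} {Q₂₀ : QuadraticForm F₀ (ι → F₀)}
    (hE : Ext Q₂ Q₂₀ j) {k : ℕ} (e f : Fin k → (ι → F₀)) (h : Hyp Q₂₀ e f) :
    Hyp Q₂ (fun i l => j (e i l)) (fun i l => j (f i l)) := by
  obtain ⟨h1, h2, h3, h4, h5⟩ := h
  refine ⟨fun i => ?_, fun i => ?_, fun i k => ?_, fun i k => ?_, fun i k => ?_⟩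
  · rw [hE, h1, map_zero]
  · rw [hE, h2, map_zero]
  · rw [ext_polar hE, h3]
    split_ifs <;> simp
  · rw [ext_polar hE, h4, map_zero]
  · rw [ext_polar hE, h5, map_zero]

theorem TS_tw {Q : QuadraticForm F (ι → F)} (M : GL ι F) (ν : Fˣ) (W : Submodule F (ι → F))
    (hW : TS (tw Q M ν) W) :
    TS Q (W.map (Matrix.toLin' (M : Matrix ι ι F))) ∧
      finrank F (W.map (Matrix.toLin' (M : Matrix ι ι F))) = finrank F W := by
  constructor
  · rintro _ ⟨w, hw, rfl⟩
    have := hW w hw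
    rw [tw_apply] at this
    exact (mul_eq_zero.1 this).resolve_left ν.ne_zero
  · have hinj : Function.Injective (Matrix.toLin' (M : Matrix ι ι F)) := by
      intro a b hab
      have h2 := congrArg (fun w => ((M⁻¹ : GL ι F) : Matrix ι ι F) *ᵥ w) hab
      simp only [Matrix.toLin'_apply, Matrix.mulVec_mulVec, ← Units.val_mul, inv_mul_cancel,
        Units.val_one, Matrix.one_mulVec] at h2
      exact h2
    exact (LinearEquiv.finrank_eq (Submodule.equivMapOfInjective _ hinj W)).symm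

/-- The matrix of a basis of `ι → F`. -/
theorem exists_GL_of_basis (b : Basis ι F (ι → F)) :
    ∃ P : GL ι F, ∀ i, (P : Matrix ι ι F) *ᵥ Pi.single i 1 = b i := by
  refine ⟨Matrix.GeneralLinearGroup.toLin.symm
    (LinearMap.GeneralLinearGroup.ofLinearEquiv b.equivFun.symm), fun i => ?_⟩
  rw [← Matrix.mulVecLin_apply, ← Matrix.GeneralLinearGroup.coe_toLin, MulEquiv.apply_symm_apply]
  simp

theorem QMinus_single (m : ℕ) (a b : F) (i : (Fin m ⊕ Fin m) ⊕ Fin 2) :
    QMinus m F a b (Pi.single i 1) = Sum.elim (fun _ => 0) ![1, b] i := by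
  rcases i with (i | i) | i
  · have := (hypPair_QMinus m a b i).Q_st 1 0
    simpa using this
  · have := (hypPair_QMinus m a b i).Q_st 0 1
    simpa using this
  · rw [coe_QMinus]
    fin_cases i <;> simp [Cfsg.quadFormMinus]

theorem polar_QMinus_single (m : ℕ) (a b : F) (i k : (Fin m ⊕ Fin m) ⊕ Fin 2) :
    QuadraticMap.polar ⇑(QMinus m F a b) (Pi.single i 1) (Pi.single k 1) =
      (Matrix.fromBlocks (Matrix.fromBlocks (0 : Matrix (Fin m) (Fin m) F) 1 1 0) 0 0
        !![2, a; a, 2 * b]) i k := by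
  rw [← gram_QMinus]
  rfl

/-- An elliptic standard basis gives an isometry with a standard minus type form. -/
theorem exists_iso_elliptic (m : ℕ) (Q' : QuadraticForm F ((Fin m ⊕ Fin m) ⊕ Fin 2 → F))
    (e f : Fin m → ((Fin m ⊕ Fin m) ⊕ Fin 2 → F)) (x y : (Fin m ⊕ Fin m) ⊕ Fin 2 → F)
    (h : Hyp Q' e f) (hx : Perp Q' e f x) (hy : Perp Q' e f y) (hx1 : Q' x = 1)
    (hxy : QuadraticMap.polar ⇑Q' x y = 1) (ht : ∀ t : F, t ^ 2 + t + Q' y ≠ 0) :
    ∃ P : GL ((Fin m ⊕ Fin m) ⊕ Fin 2) F, ∀ v,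
      Q' ((P : Matrix _ _ F) *ᵥ v) = QMinus m F 1 (Q' y) v := by
  have hperp : ∀ j, Perp Q' e f (![x, y] j) := fun j => by
    fin_cases j
    · exact hx
    · exact hy
  obtain ⟨b, hb1, hb2, hb3⟩ := exists_basis_sum Q' e f h ![x, y] hperp
    (li_pair Q' x y hx1 hxy ht) (by simp; ring)
  obtain ⟨P, hP⟩ := exists_GL_of_basis b
  obtain ⟨k1, k2, k3, k4, k5⟩ := h
  have hb30 : b (Sum.inr 0) = x := hb3 0
  have hb31 : b (Sum.inr 1) = y := hb3 1
  have hyx : QuadraticMap.polar ⇑Q' y x = 1 := by rw [QuadraticMap.polar_comm]; exact hxy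
  have key : Q'.comp (Matrix.toLin' (P : Matrix _ _ F)) = QMinus m F 1 (Q' y) := by
    apply ext_of_basis (Pi.basisFun F _)
    · intro i
      rw [Pi.basisFun_apply, QuadraticMap.comp_apply, Matrix.toLin'_apply, hP, QMinus_single]
      rcases i with (i | i) | i
      · rw [hb1, k1]; rfl
      · rw [hb2, k2]; rfl
      · fin_cases i
        · exact (congrArg Q' hb30).trans hx1
        · exact congrArg Q' hb31
    · intro i k
      have e1 : QuadraticMap.polar ⇑(Q'.comp (Matrix.toLin' (P : Matrix _ _ F)))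
          (Pi.basisFun F _ i) (Pi.basisFun F _ k) = QuadraticMap.polar ⇑Q' (b i) (b k) := by
        rw [← hP, ← hP, Pi.basisFun_apply, Pi.basisFun_apply]
        simp [QuadraticMap.polar, Matrix.mulVec_add]
      rw [e1, Pi.basisFun_apply, Pi.basisFun_apply, polar_QMinus_single]
      rcases i with (i | i) | i <;> rcases k with (k | k) | k
      · simp [hb1, k4]
      · simp [hb1, hb2, k3, Matrix.one_apply]
      · rw [hb1, hb3]; simp [(hperp k i).1]
      · rw [hb2, hb1, QuadraticMap.polar_comm, k3]; simp [Matrix.one_apply, eq_comm]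
      · simp [hb2, k5]
      · rw [hb2, hb3]; simp [(hperp k i).2]
      · rw [hb1, hb3, QuadraticMap.polar_comm]; simp [(hperp i k).1]
      · rw [hb2, hb3, QuadraticMap.polar_comm]; simp [(hperp i k).2]
      · fin_cases i <;> fin_cases k
        · simp [hb30, QuadraticMap.polar_self, hx1]
        · simp [hb30, hb31, hxy]
        · simp [hb30, hb31, hyx]
        · simp [hb31, QuadraticMap.polar_self]
  refine ⟨P, fun v => ?_⟩
  have := congrArg (fun q : QuadraticForm F _ => q v) key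
  exact this

theorem aniso_of_ne {β : F} (ht : ∀ t : F, t ^ 2 + t + β ≠ 0) (z₁ z₂ : F)
    (h : z₁ ^ 2 + 1 * z₁ * z₂ + β * z₂ ^ 2 = 0) : z₁ = 0 ∧ z₂ = 0 := by
  by_cases hz : z₂ = 0
  · subst hz
    refine ⟨?_, rfl⟩
    have : z₁ ^ 2 = 0 := by linear_combination h
    simpa using this
  · exfalso
    apply ht (z₁ / z₂)
    field_simp
    linear_combination h

theorem aniso_descend {a₀ b₀ : F₀} [Fintype F] [Fintype F₀] (hab : Aniso (j a₀) (j b₀)) :
    Aniso a₀ b₀ := by
  intro z₁ z₂ h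
  have := hab (j z₁) (j z₂) (by
    rw [← map_pow, ← map_pow, ← map_mul, ← map_mul, ← map_mul, ← map_add, ← map_add, h, map_zero])
  exact ⟨(map_eq_zero j).1 this.1, (map_eq_zero j).1 this.2⟩

/-- Every descended twist of a minus type form is isometric to the standard minus type form over the
small field. -/
theorem class_minus [Fintype F] [Fintype F₀] (m : ℕ) {a₀ b₀ : F₀} (hab : Aniso (j a₀) (j b₀))
    (M : GL ((Fin m ⊕ Fin m) ⊕ Fin 2) F) (ν : Fˣ)
    (Q₂₀ : QuadraticForm F₀ ((Fin m ⊕ Fin m) ⊕ Fin 2 → F₀))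
    (hE₂ : Ext (tw (QMinus m F (j a₀) (j b₀)) M ν) Q₂₀ j)
    (hnd : (QuadraticMap.polarBilin Q₂₀).Nondegenerate) :
    ∃ (P : GL ((Fin m ⊕ Fin m) ⊕ Fin 2) F₀) (c₀ : F₀ˣ), ∀ v,
      Q₂₀ ((P : Matrix _ _ F₀) *ᵥ v) = (c₀ : F₀) * QMinus m F₀ a₀ b₀ v := by
  have hstd := std (F := F₀) (2 * m + 2) Q₂₀ hnd (by simp; ring)
  rcases hstd with ⟨k, hk, e, f, h⟩ | ⟨k, hk, -⟩ | ⟨k, hk, e, f, x, y, h, hx, hy, hx1, hxy, ht⟩
  · exfalso
    obtain ⟨W, hW, hWk⟩ := hyp_TS _ _ _ (hyp_ext hE₂ e f h)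
    obtain ⟨h1, h2⟩ := TS_tw M ν W hW
    have := Cfsg.Agent.Lib.Helper42OInv2.TS_minus_le m hab _ h1
    omega
  · omega
  · obtain rfl : k = m := by omega
    obtain ⟨P₁, hP₁⟩ := exists_iso_elliptic k Q₂₀ e f x y h hx hy hx1 hxy ht
    obtain ⟨g, hg⟩ := exists_isometry_minus k (aniso_of_ne ht) (aniso_descend hab)
    refine ⟨P₁ * g, 1, fun v => ?_⟩
    rw [Units.val_mul, ← Matrix.mulVec_mulVec, hP₁, coe_QMinus, hg, Units.val_one, one_mul,
      coe_QMinus]

end Cfsg.Agent.Lib.Helper18LangB
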