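import Mathlib
import Cfsg.Agent.Lib.Helper18LangB

/-!
# Transport of `PΩ` along a similarity between forms on different index types
-/

set_option autoImplicit false
set_option linter.unusedSectionVars false

namespace Cfsg.Agent.Lib.Helper18RecA

open Cfsg Matrix Module
open scoped MatrixGroups
open Cfsg.Agent.Lib.Helper49Orth
  Cfsg.Agent.Lib.Helper51OrthAut Cfsg.Agent.Lib.Helper51OrthIdx
  Cfsg.Agent.Lib.Helper50Split
  Cfsg.Agent.Lib.Helper18GamA Cfsg.Agent.Lib.Helper18GamF Cfsg.Agent.Lib.Helper18GamI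

variable {ι ι' : Type} [Fintype ι] [DecidableEq ι] [Fintype ι'] [DecidableEq ι']
variable {F : Type*} [Field F]

/-- `B` (with inverse `B'`) is a similarity from `q'` to `q` with multiplier `κ`. -/
structure SimR (q : (ι → F) → F) (q' : (ι' → F) → F) (B : Matrix ι ι' F) (B' : Matrix ι' ι F)
    (κ : F) : Prop where
  mul : B * B' = 1
  mul' : B' * B = 1
  ne : κ ≠ 0
  sim : ∀ v, q (B *ᵥ v) = κ * q' v

variable {q : (ι → F) → F} {q' : (ι' → F) → F} {B : Matrix ι ι' F} {B' : Matrix ι' ι F} {κ : F}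

theorem SimR.inv (h : SimR q q' B B' κ) : SimR q' q B' B κ⁻¹ where
  mul := h.mul'
  mul' := h.mul
  ne := inv_ne_zero h.ne
  sim v := by
    have := h.sim (B' *ᵥ v)
    rw [Matrix.mulVec_mulVec, h.mul, Matrix.one_mulVec] at this
    rw [this, inv_mul_cancel_left₀ h.ne]

/-- Conjugation by a rectangular invertible matrix. -/
def cjR (h1 : B * B' = 1) (h2 : B' * B = 1) : GL ι' F ≃* GL ι F where
  toFun s := ⟨B * (s : Matrix ι' ι' F) * B', B * ((s⁻¹ : GL ι' F) : Matrix ι' ι' F) * B', by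
      calc B * (s : Matrix ι' ι' F) * B' * (B * ((s⁻¹ : GL ι' F) : Matrix ι' ι' F) * B')
          = B * ((s : Matrix ι' ι' F) * (B' * B) * ((s⁻¹ : GL ι' F) : Matrix ι' ι' F)) * B' := by
            simp only [Matrix.mul_assoc]
        _ = 1 := by rw [h2, Matrix.mul_one, ← Units.val_mul, mul_inv_cancel, Units.val_one,
            Matrix.mul_one, h1], by
      calc B * ((s⁻¹ : GL ι' F) : Matrix ι' ι' F) * B' * (B * (s : Matrix ι' ι' F) * B')
          = B * (((s⁻¹ : GL ι' F) : Matrix ι' ι' F) * (B' * B) * (s : Matrix ι' ι' F)) * B' := by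
            simp only [Matrix.mul_assoc]
        _ = 1 := by rw [h2, Matrix.mul_one, ← Units.val_mul, inv_mul_cancel, Units.val_one,
            Matrix.mul_one, h1]⟩
  invFun s := ⟨B' * (s : Matrix ι ι F) * B, B' * ((s⁻¹ : GL ι F) : Matrix ι ι F) * B, by
      calc B' * (s : Matrix ι ι F) * B * (B' * ((s⁻¹ : GL ι F) : Matrix ι ι F) * B)
          = B' * ((s : Matrix ι ι F) * (B * B') * ((s⁻¹ : GL ι F) : Matrix ι ι F)) * B := by
            simp only [Matrix.mul_assoc]
        _ = 1 := by rw [h1, Matrix.mul_one, ← Units.val_mul, mul_inv_cancel, Units.val_one,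
            Matrix.mul_one, h2], by
      calc B' * ((s⁻¹ : GL ι F) : Matrix ι ι F) * B * (B' * (s : Matrix ι ι F) * B)
          = B' * (((s⁻¹ : GL ι F) : Matrix ι ι F) * (B * B') * (s : Matrix ι ι F)) * B := by
            simp only [Matrix.mul_assoc]
        _ = 1 := by rw [h1, Matrix.mul_one, ← Units.val_mul, inv_mul_cancel, Units.val_one,
            Matrix.mul_one, h2]⟩
  left_inv s := by
    apply Units.ext
    change B' * (B * (s : Matrix ι' ι' F) * B') * B = s
    calc B' * (B * (s : Matrix ι' ι' F) * B') * B = (B' * B) * (s : Matrix ι' ι' F) * (B' * B) := by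
          simp only [Matrix.mul_assoc]
      _ = s := by rw [h2, Matrix.one_mul, Matrix.mul_one]
  right_inv s := by
    apply Units.ext
    change B * (B' * (s : Matrix ι ι F) * B) * B' = s
    calc B * (B' * (s : Matrix ι ι F) * B) * B' = (B * B') * (s : Matrix ι ι F) * (B * B') := by
          simp only [Matrix.mul_assoc]
      _ = s := by rw [h1, Matrix.one_mul, Matrix.mul_one]
  map_mul' a b := by
    apply Units.ext
    change B * ((a : Matrix ι' ι' F) * (b : Matrix ι' ι' F)) * B'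
      = B * (a : Matrix ι' ι' F) * B' * (B * (b : Matrix ι' ι' F) * B')
    calc B * ((a : Matrix ι' ι' F) * (b : Matrix ι' ι' F)) * B'
        = B * ((a : Matrix ι' ι' F) * 1 * (b : Matrix ι' ι' F)) * B' := by rw [Matrix.mul_one]
      _ = _ := by
        rw [← h2]
        simp only [Matrix.mul_assoc]

theorem coe_cjR (h1 : B * B' = 1) (h2 : B' * B = 1) (s : GL ι' F) :
    ((cjR h1 h2 s : GL ι F) : Matrix ι ι F) = B * (s : Matrix ι' ι' F) * B' := rfl

theorem coe_cjR_symm (h1 : B * B' = 1) (h2 : B' * B = 1) (s : GL ι F) :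
    (((cjR h1 h2).symm s : GL ι' F) : Matrix ι' ι' F) = B' * (s : Matrix ι ι F) * B := rfl

theorem det_cjR (h1 : B * B' = 1) (h2 : B' * B = 1) (s : GL ι' F) :
    Matrix.GeneralLinearGroup.det (cjR h1 h2 s) = Matrix.GeneralLinearGroup.det s := by
  apply Units.ext
  change (B * (s : Matrix ι' ι' F) * B').det = (s : Matrix ι' ι' F).det
  exact Matrix.det_conj_of_mul_eq_one h1 h2

theorem SimR.conj_sim (h : SimR q q' B B' κ) {s : Matrix ι' ι' F} {c : F}
    (hs : ∀ v, q' (s *ᵥ v) = c * q' v) (v : ι → F) :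
    q ((B * s * B') *ᵥ v) = c * q v := by
  rw [← Matrix.mulVec_mulVec, ← Matrix.mulVec_mulVec, h.sim, hs, h.inv.sim]
  have := h.ne
  field_simp

/-- Conjugation by a similarity, on conformal groups. -/
def cgR (h : SimR q q' B B' κ) : ↥(Geo.quadSimilarityGroup (F := F) q') ≃*
    ↥(Geo.quadSimilarityGroup (F := F) q) where
  toFun s := ⟨cjR h.mul h.mul' s, by
    obtain ⟨c, hc⟩ := s.2
    exact ⟨c, h.conj_sim hc⟩⟩
  invFun s := ⟨(cjR h.mul h.mul').symm s, by
    obtain ⟨c, hc⟩ := s.2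
    exact ⟨c, h.inv.conj_sim hc⟩⟩
  left_inv s := Subtype.ext ((cjR h.mul h.mul').symm_apply_apply _)
  right_inv s := Subtype.ext ((cjR h.mul h.mul').apply_symm_apply _)
  map_mul' a b := Subtype.ext (map_mul (cjR h.mul h.mul') _ _)

theorem coe_cgR (h : SimR q q' B B' κ) (s : ↥(Geo.quadSimilarityGroup (F := F) q')) :
    ((cgR h s : ↥(Geo.quadSimilarityGroup (F := F) q)) : GL ι F) = cjR h.mul h.mul' s := rfl

/-- Conjugation by a similarity, on isometry groups. -/
def isoOR (h : SimR q q' B B' κ) : ↥(isometryGroup F q') ≃* ↥(isometryGroup F q) where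
  toFun s := ⟨cjR h.mul h.mul' s, by
    rw [mem_iso]
    intro v
    have := h.conj_sim (s := ((s : GL ι' F) : Matrix ι' ι' F)) (c := 1) (fun v => by
      rw [iso_apply (Q := q'), one_mul]) v
    rwa [one_mul] at this⟩
  invFun s := ⟨(cjR h.mul h.mul').symm s, by
    rw [mem_iso]
    intro v
    have := h.inv.conj_sim (s := ((s : GL ι F) : Matrix ι ι F)) (c := 1) (fun v => by
      rw [iso_apply (Q := q), one_mul]) v
    rwa [one_mul] at this⟩
  left_inv s := Subtype.ext ((cjR h.mul h.mul').symm_apply_apply _)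
  right_inv s := Subtype.ext ((cjR h.mul h.mul').apply_symm_apply _)
  map_mul' a b := Subtype.ext (map_mul (cjR h.mul h.mul') _ _)

theorem coe_isoOR (h : SimR q q' B B' κ) (s : ↥(isometryGroup F q')) :
    ((isoOR h s : ↥(isometryGroup F q)) : GL ι F) = cjR h.mul h.mul' s := rfl

/-- The isomorphism of `PΩ`'s induced by a similarity. -/
def psiR (h : SimR q q' B B' κ) : POmega F q' ≃* POmega F q := centerQuot (commEquiv (isoOR h))

theorem psiR_mk (h : SimR q q' B B' κ) (s : ↥(Omega F q')) :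
    psiR h (QuotientGroup.mk s) = QuotientGroup.mk (commEquiv (isoOR h) s) := rfl

theorem congr_cAutR (h : SimR q q' B B' κ) (s : ↥(Geo.quadSimilarityGroup (F := F) q')) :
    MulAut.congr (psiR h) (cAut q' s) = cAut q (cgR h s) := by
  apply congr_eq_of_comm
  intro y
  induction y using QuotientGroup.induction_on with
  | H w =>
    obtain ⟨w', hw'⟩ := exists_conj q' s w
    rw [cAut_mk q' s w w' hw', psiR_mk, psiR_mk]
    symm
    apply cAut_mk
    rw [coe_commEquiv, coe_commEquiv, coe_isoOR, coe_isoOR, hw', coe_cgR, map_mul, map_mul, map_inv]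

/-- The standard field automorphism of `q'` is transported to a semisimilarity `y` of `q` whenever
`c y.left σ(B) = B`. -/
theorem congr_fAR (h : SimR q q' B B' κ) {σ : F ≃+* F} (hσ : Comm q' σ) (y : ↥(GamO q))
    (hy : (y : GamL ι F).right = σ) (c : F) (hc : c ≠ 0)
    (hB : (c • ((y : GamL ι F).left : Matrix ι ι F)) * B.map σ = B) :
    MulAut.congr (psiR h) (fA hσ) = sAut q y := by
  apply congr_eq_of_comm
  intro z
  induction z using QuotientGroup.induction_on with
  | H w =>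
    unfold fA
    rw [sAut_mk', psiR_mk, psiR_mk]
    symm
    apply sAut_mk
    rw [coe_commEquiv, coe_commEquiv, coe_isoOR, coe_isoOR, coe_sOm, cj_apply, cj_apply, hy]
    change cjR h.mul h.mul' ((1 : GL ι' F) * mapAut σ ((w : ↥(isometryGroup F q')) : GL ι' F) *
      (1 : GL ι' F)⁻¹) = _
    rw [one_mul, inv_one, mul_one, eq_mul_inv_iff_mul_eq]
    apply Units.ext
    rw [Units.val_mul, Units.val_mul, coe_cjR, coe_mapAut, coe_mapAut, coe_cjR]
    set W := (((w : ↥(isometryGroup F q')) : GL ι' F) : Matrix ι' ι' F) with hW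
    set g := ((y : GamL ι F).left : Matrix ι ι F) with hg
    have e1 : (B * W * B').map σ = B.map σ * W.map σ * B'.map σ := by
      have h1 := Matrix.map_mul (f := (σ : F →+* F)) (L := B * W) (M := B')
      have h2 := Matrix.map_mul (f := (σ : F →+* F)) (L := B) (M := W)
      simp only [RingHom.coe_coe] at h1 h2
      rw [h1, h2]
    have e2 : B'.map σ * B.map σ = 1 := by
      have h1 := Matrix.map_mul (f := (σ : F →+* F)) (L := B') (M := B)
      simp only [RingHom.coe_coe] at h1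
      rw [← h1, h.mul']
      exact Matrix.map_one (σ : F →+* F) (map_zero _) (map_one _)
    have e3 : g * B.map σ = c⁻¹ • B := by
      conv_rhs => rw [← hB]
      rw [Matrix.smul_mul, smul_smul, inv_mul_cancel₀ hc, one_smul]
    have e4 : B' * g = c⁻¹ • B'.map σ := by
      have h3 : B' * g * B.map σ = c⁻¹ • (1 : Matrix ι' ι' F) := by
        rw [Matrix.mul_assoc, e3, Matrix.mul_smul, h.mul']
      have e5 : B.map σ * B'.map σ = 1 := by
        have h1 := Matrix.map_mul (f := (σ : F →+* F)) (L := B) (M := B')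
        simp only [RingHom.coe_coe] at h1
        rw [← h1, h.mul]
        exact Matrix.map_one (σ : F →+* F) (map_zero _) (map_one _)
      calc B' * g = B' * g * (B.map σ * B'.map σ) := by rw [e5, Matrix.mul_one]
        _ = (B' * g * B.map σ) * B'.map σ := by simp only [Matrix.mul_assoc]
        _ = _ := by rw [h3, Matrix.smul_mul, Matrix.one_mul]
    rw [e1]
    calc B * W.map σ * B' * g = B * W.map σ * (B' * g) := by simp only [Matrix.mul_assoc]
      _ = c⁻¹ • (B * W.map σ * B'.map σ) := by rw [e4, Matrix.mul_smul]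
      _ = (c⁻¹ • B) * W.map σ * B'.map σ := by simp only [Matrix.smul_mul]
      _ = g * (B.map σ * W.map σ * B'.map σ) := by
        rw [← e3]
        simp only [Matrix.mul_assoc]

section forms

open Cfsg.Agent.Lib.Helper18GamE Cfsg.Agent.Lib.Helper18GamL

variable {Q : QuadraticForm F (ι → F)} {Q' : QuadraticForm F (ι' → F)}

theorem mu_cgR (h : SimR ⇑Q ⇑Q' B B' κ) (hx : ∃ x, Q x = 1) (hx' : ∃ x, Q' x = 1) (s : ↥(GO Q')) :
    mu Q hx (cgR h s) = mu Q' hx' s :=
  mu_eq Q hx _ _ (fun v => h.conj_sim (mu_spec Q' hx' s) v)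

theorem delta_cgR (h : SimR ⇑Q ⇑Q' B B' κ) (hx : ∃ x, Q x = 1) (hx' : ∃ x, Q' x = 1) (n : ℕ)
    (s : ↥(GO Q')) : delta Q hx n (cgR h s) = delta Q' hx' n s := by
  rw [delta_apply, delta_apply, mu_cgR h hx hx', coe_cgR, det_cjR]

theorem map_cgR_ker_delta (h : SimR ⇑Q ⇑Q' B B' κ) (hx : ∃ x, Q x = 1) (hx' : ∃ x, Q' x = 1)
    (n : ℕ) : (delta Q' hx' n).ker.map (cgR h).toMonoidHom = (delta Q hx n).ker := by
  ext g
  constructor
  · rintro ⟨s, hs, rfl⟩
    change delta Q hx n (cgR h s) = 1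
    rw [delta_cgR h hx hx']
    exact hs
  · intro hg
    obtain ⟨s, rfl⟩ := (cgR h).surjective g
    refine ⟨s, ?_, rfl⟩
    rw [MonoidHom.mem_ker, delta_cgR h hx hx'] at hg
    exact hg

theorem map_congrR (h : SimR q q' B B' κ) (D : Subgroup ↥(Geo.quadSimilarityGroup (F := F) q))
    (D' : Subgroup ↥(Geo.quadSimilarityGroup (F := F) q'))
    (hD : D'.map (cgR h).toMonoidHom = D) :
    (D.map (cAut q)).map (MulAut.congr (psiR h).symm).toMonoidHom = D'.map (cAut q') := by
  have h1 : (D'.map (cAut q')).map (MulAut.congr (psiR h)).toMonoidHom = D.map (cAut q) := by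
    rw [← hD, Subgroup.map_map, Subgroup.map_map]
    congr 1
    ext1 s
    exact congr_cAutR h s
  rw [← h1, Subgroup.map_map]
  have h3 : (MulAut.congr (psiR h).symm).toMonoidHom.comp (MulAut.congr (psiR h)).toMonoidHom
      = MonoidHom.id _ := by
    ext1 β
    ext y
    change (psiR h).symm ((psiR h) (β ((psiR h).symm ((psiR h).symm.symm y)))) = β y
    simp
  rw [h3, Subgroup.map_id]

variable [Fintype F] {F₀ : Type*} [Field F₀] [Fintype F₀] {Q₀ : QuadraticForm F₀ (ι' → F₀)}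
  {j : F₀ →+* F} {σ : F ≃+* F}

theorem finalR (hQ' : (QuadraticMap.polarBilin Q').Nondegenerate)
    (hQ₀ : (QuadraticMap.polarBilin Q₀).Nondegenerate) (hn : 5 ≤ Fintype.card ι')
    (hσ : Comm ⇑Q' σ) (hE : Ext Q' Q₀ j) (hj : ∀ a, σ a = a ↔ a ∈ Set.range j)
    (hx₀ : ∃ x, Q₀ x = 1) (ψ : POmega F ⇑Q ≃* POmega F ⇑Q') (x : MulAut (POmega F ⇑Q))
    (hx' : MulAut.congr ψ x = fA hσ) (N : Subgroup (MulAut (POmega F ⇑Q)))
    (D' : Subgroup ↥(GO Q')) (D₀ : Subgroup ↥(GO Q₀))
    (hN : N.map (MulAut.congr ψ).toMonoidHom = D'.map (cAut ⇑Q'))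
    (hZ : ZZ Q' ≤ D') (hO : Om' Q' ≤ D') (hD : ∀ h, mapJ hE h ∈ D' ↔ h ∈ D₀) :
    Nonempty (↥(N ⊓ Subgroup.centralizer {x}) ≃* ↥(D₀.map (cAut ⇑Q₀))) ∧
      splitClassCount N (Inn (POmega F ⇑Q)) x =
        ((Om' Q' ⊔ ZZ Q') ⊔ D₀.map (mapJ hE)).relIndex D' := by
  constructor
  · obtain ⟨e1⟩ := centralizer_map_equiv (MulAut.congr ψ) N x
    rw [hN, hx'] at e1
    obtain ⟨e2⟩ := cent_equiv hQ' hQ₀ hn hσ hE hj hx₀ D' D₀ hZ hD
    exact ⟨e1.trans e2⟩
  · rw [← splitClassCount_map (MulAut.congr ψ) N (Inn (POmega F ⇑Q)) x, hN, map_Inn, hx',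
      split_eq hQ' hn hσ hE hj hx₀ D' D₀ hZ hO hD]

end forms

end Cfsg.Agent.Lib.Helper18RecA
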