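import Mathlib
import Cfsg.Prelude.Def_Solvable
import Cfsg.Agent.Lib.Helper1Fitting

set_option autoImplicit false
open Cfsg

/-! Generic lemmas for the "failure of local balance" statements. (helper42) -/

namespace Cfsg.Agent.Lib.Helper42BalA

open Cfsg.Agent.Lib.Helper1Fitting

theorem core_ne_bot_of_equiv {G H : Type*} [Group G] [Group H] [Finite G] (p : ℕ) (e : G ≃* H)
    (h : pPrimeCore p G ≠ ⊥) : pPrimeCore p H ≠ ⊥ := by
  have h1 : ((pPrimeCore p G).map e.toMonoidHom).Normal :=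
    (pPrimeCore_normal p).map _ e.surjective
  have h2 : (Nat.card ((pPrimeCore p G).map e.toMonoidHom)).Coprime p := by
    rw [Subgroup.card_map_of_injective e.injective]
    exact card_pPrimeCore_coprime p
  have h3 := le_pPrimeCore h1 h2
  intro h0
  rw [h0, le_bot_iff, Subgroup.map_eq_bot_iff_of_injective _ e.injective] at h3
  exact h h3

theorem core_ne_bot_congr {G H : Type*} [Group G] [Group H] [Finite G] (p : ℕ) (e : G ≃* H) :
    pPrimeCore p G ≠ ⊥ ↔ pPrimeCore p H ≠ ⊥ := by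
  have : Finite H := Finite.of_equiv G e.toEquiv
  exact ⟨core_ne_bot_of_equiv p e, core_ne_bot_of_equiv p e.symm⟩

/-- conjugation transports `A ∩ C(x)` -/
theorem cent_equiv {X : Type*} [Group X] (A : Subgroup X) (c x : X) :
    Nonempty (↥(A ⊓ Subgroup.centralizer {x}) ≃*
      ↥(A.map (MulAut.conj c).toMonoidHom ⊓ Subgroup.centralizer {c * x * c⁻¹})) := by
  have h : (A ⊓ Subgroup.centralizer {x}).map (MulAut.conj c).toMonoidHom
      = A.map (MulAut.conj c).toMonoidHom ⊓ Subgroup.centralizer {c * x * c⁻¹} := by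
    ext y
    simp only [Subgroup.mem_map, Subgroup.mem_inf, Subgroup.mem_centralizer_singleton_iff]
    constructor
    · rintro ⟨a, ⟨ha1, ha2⟩, rfl⟩
      refine ⟨⟨a, ha1, rfl⟩, ?_⟩
      show c * a * c⁻¹ * (c * x * c⁻¹) = c * x * c⁻¹ * (c * a * c⁻¹)
      calc c * a * c⁻¹ * (c * x * c⁻¹) = c * (a * x) * c⁻¹ := by group
        _ = c * (x * a) * c⁻¹ := by rw [ha2]
        _ = _ := by group
    · rintro ⟨⟨a, ha1, rfl⟩, hy2⟩
      refine ⟨a, ⟨ha1, ?_⟩, rfl⟩
      have hy2' : c * a * c⁻¹ * (c * x * c⁻¹) = c * x * c⁻¹ * (c * a * c⁻¹) := hy2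
      calc a * x = c⁻¹ * (c * a * c⁻¹ * (c * x * c⁻¹)) * c := by group
        _ = c⁻¹ * (c * x * c⁻¹ * (c * a * c⁻¹)) * c := by rw [hy2']
        _ = _ := by group
  exact ⟨((A ⊓ Subgroup.centralizer {x}).equivMapOfInjective _ (MulAut.conj c).injective).trans
    (MulEquiv.subgroupCongr h)⟩

theorem card_fix_conj {K : Type*} [Group K] (c x : MulAut K) :
    Nat.card ↥(MonoidHom.eqLocus (c * x * c⁻¹).toMonoidHom (MonoidHom.id K))
      = Nat.card ↥(MonoidHom.eqLocus x.toMonoidHom (MonoidHom.id K)) := by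
  symm
  apply Nat.card_congr
  refine Equiv.subtypeEquiv c.toEquiv ?_
  intro k
  show x k = k ↔ c (x (c⁻¹ (c k))) = c k
  have h1 : c⁻¹ (c k) = k := by
    rw [← MulAut.mul_apply, inv_mul_cancel]; rfl
  rw [h1, c.injective.eq_iff]

/-- if the fixed points form a nontrivial `p'`-group then `O_{p'}(C_A(x)) ≠ 1` -/
theorem core_ne_bot_of_fix {K : Type*} [Group K]
    (hinj : Function.Injective (MulAut.conj : K →* MulAut K)) (A : Subgroup (MulAut K))
    (hinn : ∀ k : K, MulAut.conj k ∈ A) (x : MulAut K) (p : ℕ)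
    (hcop : Nat.Coprime p (Nat.card ↥(MonoidHom.eqLocus x.toMonoidHom (MonoidHom.id K))))
    (hne : ∃ k : K, x k = k ∧ k ≠ 1) :
    pPrimeCore p ↥(A ⊓ Subgroup.centralizer {x}) ≠ ⊥ := by
  have hmem : ∀ k : ↥(MonoidHom.eqLocus x.toMonoidHom (MonoidHom.id K)),
      MulAut.conj (k : K) ∈ A ⊓ Subgroup.centralizer {x} := by
    intro k
    refine ⟨hinn _, ?_⟩
    show MulAut.conj (k : K) ∈ Subgroup.centralizer {x}
    rw [Subgroup.mem_centralizer_singleton_iff]
    have hk : x (k : K) = k := k.2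
    ext y
    simp only [MulAut.mul_apply, MulAut.conj_apply, map_mul, map_inv, hk]
  let ρ : ↥(MonoidHom.eqLocus x.toMonoidHom (MonoidHom.id K)) →* ↥(A ⊓ Subgroup.centralizer {x}) :=
    (MulAut.conj.comp (Subgroup.subtype _)).codRestrict _ hmem
  have hρ : Function.Injective ρ := by
    intro a b hab
    have h1 : MulAut.conj (a : K) = MulAut.conj (b : K) := congrArg Subtype.val hab
    exact Subtype.ext (hinj h1)
  have hnorm : ρ.range.Normal := by
    constructor
    rintro _ ⟨k, rfl⟩ β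
    have hβ : (β : MulAut K) * x = x * β := Subgroup.mem_centralizer_singleton_iff.1 β.2.2
    have hk : x (k : K) = k := k.2
    have hfix : x ((β : MulAut K) k) = (β : MulAut K) k := by
      have := congrArg (fun γ : MulAut K => γ (k : K)) hβ
      simp only [MulAut.mul_apply, hk] at this
      exact this.symm
    refine ⟨⟨(β : MulAut K) k, hfix⟩, ?_⟩
    apply Subtype.ext
    show MulAut.conj ((β : MulAut K) k) = (β : MulAut K) * MulAut.conj (k : K) * (β : MulAut K)⁻¹
    ext y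
    simp only [MulAut.mul_apply, MulAut.conj_apply, map_mul, map_inv]
    rw [← MulAut.mul_apply, mul_inv_cancel, MulAut.one_apply]
  have hcard : (Nat.card ρ.range).Coprime p := by
    rw [Nat.card_congr (MonoidHom.ofInjective hρ).toEquiv.symm]
    exact hcop.symm
  have hle := le_pPrimeCore hnorm hcard
  obtain ⟨k, hk, hk1⟩ := hne
  intro h0
  rw [h0, le_bot_iff] at hle
  have h1 : ρ ⟨k, hk⟩ ∈ ρ.range := ⟨_, rfl⟩
  rw [hle, Subgroup.mem_bot] at h1
  have h2 : ρ ⟨k, hk⟩ = ρ 1 := by rw [h1, map_one]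
  exact hk1 (congrArg Subtype.val (hρ h2))

/-- abstract core of the "local balance" argument -/
theorem X_eq_bot {K S₀ : Type*} [Group K] [Group S₀] (lam : S₀ →* K) (φ : MulAut K) (p : ℕ)
    [Fact p.Prime]
    (H1 : Function.Injective (MulAut.conj : K →* MulAut K))
    (H2 : ∀ s, φ (lam s) = lam s)
    (H3 : ∀ N : Subgroup S₀, N.Normal → (∀ n ∈ N, lam n = 1) ∨ ∃ t ∈ N, orderOf (lam t) = p)
    (H4 : ∀ k, φ k = k → ∀ s, ∃ t, k * lam s * k⁻¹ * (lam s)⁻¹ = lam t)
    (H5 : ∀ β : MulAut K, (∀ s, β (lam s) = lam s) → β ^ p = 1)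
    (X : Subgroup (MulAut K)) [Finite X] (hX : (Nat.card X).Coprime p)
    (hc : ∀ β ∈ X, β * φ = φ * β)
    (hn : ∀ k, φ k = k → ∀ β ∈ X, MulAut.conj k * β * (MulAut.conj k)⁻¹ ∈ X) : X = ⊥ := by
  have hp : p.Prime := Fact.out
  -- step 0
  have s0 : ∀ β ∈ X, β ^ p = 1 → β = 1 := by
    intro β hβ h
    have h1 : orderOf β ∣ p := orderOf_dvd_of_pow_eq_one h
    have h2 : orderOf β ∣ Nat.card X := by
      have := orderOf_dvd_natCard (⟨β, hβ⟩ : X)
      rwa [Subgroup.orderOf_mk] at this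
    have h3 : orderOf β ∣ 1 := by
      rw [← hX]
      exact Nat.dvd_gcd h2 h1
    exact orderOf_eq_one_iff.1 (Nat.dvd_one.1 h3)
  -- step 1
  let N : Subgroup S₀ := X.comap (MulAut.conj.comp lam)
  have hN : N.Normal := by
    constructor
    intro n hn' g
    show MulAut.conj (lam (g * n * g⁻¹)) ∈ X
    rw [map_mul, map_mul, map_inv, map_mul, map_mul, map_inv]
    exact hn _ (H2 g) _ hn'
  have s1 : ∀ n, MulAut.conj (lam n) ∈ X → lam n = 1 := by
    rcases H3 N hN with h | ⟨t, ht, ho⟩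
    · exact fun n hn' => h n hn'
    · exfalso
      have h1 : MulAut.conj (lam t) = 1 := by
        have ht' : MulAut.conj (lam t) ∈ X := ht
        apply s0 _ ht'
        rw [← map_pow, ← ho, pow_orderOf_eq_one, map_one]
      have h2 : lam t = 1 := H1 (by rw [h1, map_one])
      rw [h2, orderOf_one] at ho
      exact hp.one_lt.ne ho
  -- step 2
  have s2 : ∀ k, φ k = k → MulAut.conj k ∈ X → k = 1 := by
    intro k hk hkX
    have h1 : MulAut.conj k = 1 := by
      apply s0 _ hkX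
      apply H5
      intro s
      obtain ⟨t, ht⟩ := H4 k hk s
      have h2 : MulAut.conj (lam t) ∈ X := by
        rw [← ht, map_mul, map_mul, map_mul, map_inv, map_inv, mul_assoc, mul_assoc]
        apply X.mul_mem hkX
        rw [← mul_assoc]
        exact hn _ (H2 s) _ (X.inv_mem hkX)
      have h3 := s1 t h2
      rw [h3] at ht
      rw [MulAut.conj_apply]
      exact mul_inv_eq_one.1 ht
    exact H1 (by rw [h1, map_one])
  -- step 3
  rw [eq_bot_iff]
  intro β hβ
  rw [Subgroup.mem_bot]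
  apply s0 β hβ
  apply H5
  intro s
  have hfix : φ (β (lam s)) = β (lam s) := by
    have := congrArg (fun γ : MulAut K => γ (lam s)) (hc β hβ)
    simp only [MulAut.mul_apply, H2] at this
    exact this.symm
  have h1 : β (lam s) * (lam s)⁻¹ = 1 := by
    apply s2
    · rw [map_mul, map_inv, hfix, H2]
    · have h2 : MulAut.conj (β (lam s) * (lam s)⁻¹)
          = β * (MulAut.conj (lam s) * β⁻¹ * (MulAut.conj (lam s))⁻¹) := by
        ext y
        simp only [MulAut.mul_apply, MulAut.conj_apply, MulAut.conj_inv_apply, map_mul, map_inv,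
          MulAut.apply_inv_self, mul_inv_rev, inv_inv, mul_assoc]
      rw [h2]
      exact X.mul_mem hβ (hn _ (H2 s) _ (X.inv_mem hβ))
  exact mul_inv_eq_one.1 h1

/-- the conclusion in the form needed -/
theorem core_eq_bot {K S₀ : Type*} [Group K] [Finite K] [Group S₀] (lam : S₀ →* K) (φ : MulAut K)
    (p : ℕ) [Fact p.Prime]
    (H1 : Function.Injective (MulAut.conj : K →* MulAut K))
    (H2 : ∀ s, φ (lam s) = lam s)
    (H3 : ∀ N : Subgroup S₀, N.Normal → (∀ n ∈ N, lam n = 1) ∨ ∃ t ∈ N, orderOf (lam t) = p)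
    (H4 : ∀ k, φ k = k → ∀ s, ∃ t, k * lam s * k⁻¹ * (lam s)⁻¹ = lam t)
    (H5 : ∀ β : MulAut K, (∀ s, β (lam s) = lam s) → β ^ p = 1)
    (A : Subgroup (MulAut K)) (hinn : ∀ k : K, MulAut.conj k ∈ A) :
    pPrimeCore p ↥(A ⊓ Subgroup.centralizer {φ}) = ⊥ := by
  have hfin : Finite (MulAut K) := Finite.of_injective (fun β : MulAut K => (β : K → K))
    (fun a b h => MulEquiv.ext (congrFun h))
  let C := A ⊓ Subgroup.centralizer {φ}
  let X : Subgroup (MulAut K) := (pPrimeCore p ↥C).map C.subtype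
  have hX : X = ⊥ := by
    apply X_eq_bot lam φ p H1 H2 H3 H4 H5 X
    · rw [Subgroup.card_map_of_injective C.subtype_injective]
      exact card_pPrimeCore_coprime p
    · rintro _ ⟨β, -, rfl⟩
      exact Subgroup.mem_centralizer_singleton_iff.1 β.2.2
    · rintro k hk _ ⟨β, hβ, rfl⟩
      have hkC : MulAut.conj k ∈ C := by
        refine ⟨hinn k, ?_⟩
        show MulAut.conj k ∈ Subgroup.centralizer {φ}
        rw [Subgroup.mem_centralizer_singleton_iff]
        ext y
        simp only [MulAut.mul_apply, MulAut.conj_apply, map_mul, map_inv, hk]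
      have h1 := (pPrimeCore_normal (G := ↥C) p).conj_mem β hβ ⟨_, hkC⟩
      exact Subgroup.mem_map.2 ⟨_, h1, rfl⟩
  exact (Subgroup.map_eq_bot_iff_of_injective _ C.subtype_injective).1 hX

end Cfsg.Agent.Lib.Helper42BalA
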