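import Mathlib
import Cfsg.Agent.Lib.Helper18GamH
import Cfsg.Agent.Lib.Helper42H90
import Cfsg.Agent.Lib.Helper42Quad

set_option autoImplicit false
set_option linter.unusedSectionVars false
open Cfsg

/-! Lang's theorem (Hilbert 90) for conformal orthogonal groups over finite fields and the
conjugacy of the elements of prime order in a coset of a field automorphism. (helper42) -/

namespace Cfsg.Agent.Lib.Helper42OLang

open Matrix Module
open scoped MatrixGroups
open Cfsg.Agent.Lib.Helper51OrthAut Cfsg.Agent.Lib.Helper51OrthIdx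
  Cfsg.Agent.Lib.Helper18GamA Cfsg.Agent.Lib.Helper18GamB Cfsg.Agent.Lib.Helper18GamE
  Cfsg.Agent.Lib.Helper18GamF Cfsg.Agent.Lib.Helper42H90

variable {F : Type*} [Field F] {F₀ : Type*} [Field F₀]
variable {ι : Type} [Fintype ι] [DecidableEq ι]

/-- two quadratic forms with the same values and polar values on the standard basis agree -/
theorem qf_ext' (Q Q' : QuadraticForm F (ι → F)) (h1 : ∀ i, Q (Pi.single i 1) = Q' (Pi.single i 1))
    (h2 : ∀ i k, QuadraticMap.polar ⇑Q (Pi.single i 1) (Pi.single k 1)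
      = QuadraticMap.polar ⇑Q' (Pi.single i 1) (Pi.single k 1)) (v : ι → F) : Q v = Q' v := by
  apply qf_ext Q Q' h1
  intro i k
  have e1 := h2 i k
  unfold QuadraticMap.polar at e1
  rw [h1, h1] at e1
  linear_combination e1

/-- descent of a `σ`-equivariant quadratic form to the fixed field -/
theorem exists_descent_form (Q : QuadraticForm F (ι → F)) (σ : F ≃+* F) (hσ : Comm ⇑Q σ)
    (j : F₀ →+* F) (hj : ∀ a, σ a = a ↔ a ∈ Set.range j) :
    ∃ Q₁ : QuadraticForm F₀ (ι → F₀), Ext Q Q₁ j := by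
  have hfix : ∀ v : ι → F₀, σ (Q (fun i => j (v i))) = Q (fun i => j (v i)) := by
    intro v
    rw [← hσ]
    congr 1
    funext i
    exact (hj _).2 ⟨_, rfl⟩
  choose q hq using fun v => (hj _).1 (hfix v)
  have hadd : ∀ x y : ι → F₀, (fun i => j ((x + y) i)) = (fun i => j (x i)) + (fun i => j (y i)) := by
    intro x y; funext i; simp
  have hsmul : ∀ (c : F₀) (x : ι → F₀), (fun i => j ((c • x) i)) = j c • (fun i => j (x i)) := by
    intro c x; funext i; simp
  have hb : ∀ x y, j (q (x + y) - q x - q y)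
      = QuadraticMap.polar ⇑Q (fun i => j (x i)) (fun i => j (y i)) := by
    intro x y
    rw [map_sub, map_sub, hq, hq, hq, hadd]
    rfl
  refine ⟨{ toFun := q
            toFun_smul := ?_
            exists_companion' := ⟨LinearMap.mk₂ F₀ (fun x y => q (x + y) - q x - q y) ?_ ?_ ?_ ?_, ?_⟩ },
    fun v => (hq v).symm⟩
  · intro c x
    apply j.injective
    rw [smul_eq_mul, map_mul, map_mul, hq, hq, hsmul, QuadraticMap.map_smul, smul_eq_mul]
  · intro x y z
    apply j.injective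
    rw [map_add, hb, hb, hb, hadd, QuadraticMap.polar_add_left]
  · intro c x y
    apply j.injective
    rw [smul_eq_mul, map_mul, hb, hb, hsmul, QuadraticMap.polar_smul_left, smul_eq_mul]
  · intro x y z
    apply j.injective
    rw [map_add, hb, hb, hb, hadd, QuadraticMap.polar_add_right]
  · intro c x y
    apply j.injective
    rw [smul_eq_mul, map_mul, hb, hb, hsmul, QuadraticMap.polar_smul_right, smul_eq_mul]
  · intro x y
    show q (x + y) = q x + q y + (q (x + y) - q x - q y)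
    ring

theorem ext_polar {Q : QuadraticForm F (ι → F)} {Q₀ : QuadraticForm F₀ (ι → F₀)} {j : F₀ →+* F}
    (hE : Ext Q Q₀ j) (x y : ι → F₀) :
    QuadraticMap.polar ⇑Q (fun i => j (x i)) (fun i => j (y i)) = j (QuadraticMap.polar ⇑Q₀ x y) := by
  unfold QuadraticMap.polar
  rw [map_sub, map_sub, ← hE, ← hE, ← hE]
  congr 3
  funext i
  simp

theorem ext_nondeg {Q : QuadraticForm F (ι → F)} {Q₀ : QuadraticForm F₀ (ι → F₀)} {j : F₀ →+* F}
    (hE : Ext Q Q₀ j) (hQ : (QuadraticMap.polarBilin Q).Nondegenerate) :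
    (QuadraticMap.polarBilin Q₀).Nondegenerate := by
  rw [Cfsg.Agent.Lib.Helper42Quad.nondeg_iff] at hQ ⊢
  intro x hx
  have h1 : (fun i => j (x i)) = 0 := by
    apply hQ
    intro y
    have h2 : QuadraticMap.polarBilin Q (fun i => j (x i)) = 0 := by
      apply (Pi.basisFun F ι).ext
      intro k
      rw [Pi.basisFun_apply, ← Helper18GamE.map_single (j := j) k]
      show QuadraticMap.polar ⇑Q _ _ = 0
      rw [ext_polar hE, hx, map_zero]
    exact congrArg (fun f => f y) h2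
  funext i
  have := congrFun h1 i
  exact j.injective (by rw [this]; simp)

/-- a similarity over `F₀` between two forms extends to their scalar extensions -/
theorem ext_sim2 {Q Q' : QuadraticForm F (ι → F)} {Q₀ Q₁ : QuadraticForm F₀ (ι → F₀)}
    {j : F₀ →+* F} (hE : Ext Q Q₀ j) (hE' : Ext Q' Q₁ j) (B : Matrix ι ι F₀) (c : F₀)
    (h : ∀ v, Q₁ (B *ᵥ v) = c * Q₀ v) (v : ι → F) : Q' (B.map j *ᵥ v) = j c * Q v := by
  have key : ∀ w : ι → F₀, Q' (B.map j *ᵥ (fun i => j (w i))) = j c * Q (fun i => j (w i)) := by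
    intro w
    rw [map_mulVec_j, hE', h, map_mul, hE]
  have := qf_ext (Q'.comp (Matrix.toLin' (B.map j))) (j c • Q) (fun i => by
      have := key (Pi.single i 1)
      rw [Helper18GamE.map_single] at this
      simpa using this) (fun i k => by
      have := key (Pi.single i 1 + Pi.single k 1)
      have e : (fun a => j ((Pi.single i 1 + Pi.single k 1 : ι → F₀) a))
          = (Pi.single i 1 + Pi.single k 1 : ι → F) := by
        rw [← Helper18GamE.map_single (j := j) i, ← Helper18GamE.map_single (j := j) k]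
        funext a
        simp
      rw [e] at this
      simpa using this) v
  simpa using this

/-- **Lang's theorem for `GO(Q)`** (in the form of Hilbert 90 for a cyclic group of field
automorphisms); `hsim` says that the `F₀`-forms of `Q` are `F₀`-similar to `Q₀`. -/
theorem hilbert90_GO [Finite F] {Q : QuadraticForm F (ι → F)} {Q₀ : QuadraticForm F₀ (ι → F₀)}
    {σ : F ≃+* F} {j : F₀ →+* F}
    (hQ : (QuadraticMap.polarBilin Q).Nondegenerate) (hσ : Comm ⇑Q σ) (hE : Ext Q Q₀ j)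
    (hj : ∀ a, σ a = a ↔ a ∈ Set.range j) (r : ℕ) (hr : orderOf σ = r) (hr0 : 0 < r) (i0 : ι)
    (hsim : ∀ Q₁ : QuadraticForm F₀ (ι → F₀), (QuadraticMap.polarBilin Q₁).Nondegenerate →
      (∃ (A A' : Matrix ι ι F) (κ : F), κ ≠ 0 ∧ A * A' = 1 ∧
        ∀ v : ι → F₀, j (Q₁ v) = κ * Q (A *ᵥ fun i => j (v i))) →
      ∃ (B : GL ι F₀) (c₀ : F₀), c₀ ≠ 0 ∧ ∀ v, Q₁ ((B : Matrix ι ι F₀) *ᵥ v) = c₀ * Q₀ v)
    (g : ↥(GO Q)) (z : F) (hN : NkM σ ((g : GL ι F) : Matrix ι ι F) r = z • 1) :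
    ∃ (c : Fˣ) (h : ↥(GO Q)), ((c : F) • ((g : GL ι F) : Matrix ι ι F)) *
      ((h : GL ι F) : Matrix ι ι F).map σ = ((h : GL ι F) : Matrix ι ι F) := by
  have hgg : ((g : GL ι F) : Matrix ι ι F) * (((g : GL ι F)⁻¹ : GL ι F) : Matrix ι ι F) = 1 := by
    rw [← Units.val_mul, mul_inv_cancel, Units.val_one]
  obtain ⟨c, M, M', hc, e1, e2, e3⟩ := hilbert90_PGL σ r hr hr0 _ _ hgg i0 z hN
  obtain ⟨μ, hμ⟩ := g.2
  obtain ⟨c1, hc1⟩ : ∃ c1 : F, c1 = c * c * μ := ⟨_, rfl⟩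
  have hc10 : c1 ≠ 0 := by
    rw [hc1]; exact mul_ne_zero (mul_ne_zero hc hc) μ.ne_zero
  obtain ⟨Q', hQ'⟩ : ∃ Q' : QuadraticForm F (ι → F), ∀ v, Q' v = Q (M *ᵥ v) :=
    ⟨Q.comp (Matrix.toLin' M), fun v => rfl⟩
  have hrel : ∀ u : ι → F, Q' (fun i => σ (u i)) = c1 * σ (Q' u) := by
    intro u
    rw [hQ', hQ']
    conv_lhs => rw [← e3]
    rw [← Matrix.mulVec_mulVec, ← map_mulVec', Matrix.smul_mulVec, QuadraticMap.map_smul, hμ, hσ,
      hc1, smul_eq_mul]
    ring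
  have hM'M : ∀ x, M' *ᵥ (M *ᵥ x) = x := fun x => by rw [Matrix.mulVec_mulVec, e2, Matrix.one_mulVec]
  have hMM' : ∀ x, M *ᵥ (M' *ᵥ x) = x := fun x => by rw [Matrix.mulVec_mulVec, e1, Matrix.one_mulVec]
  have hpol' : ∀ x y, QuadraticMap.polar ⇑Q' x y = QuadraticMap.polar ⇑Q (M *ᵥ x) (M *ᵥ y) := by
    intro x y
    unfold QuadraticMap.polar
    rw [hQ', hQ', hQ', Matrix.mulVec_add]
  have hnd' : ∀ x, (∀ y, QuadraticMap.polar ⇑Q' x y = 0) → x = 0 := by
    intro x hx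
    have h1 : M *ᵥ x = 0 := by
      apply (Cfsg.Agent.Lib.Helper42Quad.nondeg_iff Q).1 hQ
      intro y
      rw [← hMM' y, ← hpol']
      exact hx _
    rw [← hM'M x, h1, Matrix.mulVec_zero]
  -- a rational vector with nonzero value
  obtain ⟨w, hw, hw0⟩ : ∃ w : ι → F, (fun i => σ (w i)) = w ∧ Q' w ≠ 0 := by
    by_contra hcon
    push Not at hcon
    have hs : ∀ i : ι, (fun a => σ ((Pi.single i 1 : ι → F) a)) = Pi.single i 1 := by
      intro i
      funext a
      by_cases h : a = i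
      · subst h; simp
      · simp [h]
    have hzero : ∀ v, Q' v = (0 : QuadraticForm F (ι → F)) v := by
      apply qf_ext
      · intro i
        exact hcon _ (hs i)
      · intro i k
        apply hcon
        funext a
        have h1 := congrFun (hs i) a
        have h2 := congrFun (hs k) a
        simp only [Pi.add_apply, map_add] at h1 h2 ⊢
        rw [h1, h2]
    have h1 : (Pi.single i0 1 : ι → F) = 0 := by
      apply hnd'
      intro y
      unfold QuadraticMap.polar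
      rw [hzero, hzero, hzero]
      simp
    have := congrFun h1 i0
    simp at this
  obtain ⟨κ, hκ⟩ : ∃ κ, κ = Q' w := ⟨_, rfl⟩
  rw [← hκ] at hw0
  have hκσ : κ = c1 * σ κ := by
    rw [hκ, ← hrel, hw]
  have hσκ : σ κ ≠ 0 := (map_ne_zero σ).2 hw0
  obtain ⟨Q'', hQ''⟩ : ∃ Q'' : QuadraticForm F (ι → F), ∀ v, Q'' v = κ⁻¹ * Q' v :=
    ⟨κ⁻¹ • Q', fun v => rfl⟩
  have hcomm : Comm ⇑Q'' σ := by
    intro v
    rw [hQ'', hQ'', hrel, map_mul, map_inv₀]
    have : κ⁻¹ * c1 = (σ κ)⁻¹ := by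
      conv_lhs => rw [hκσ]
      field_simp
    rw [← mul_assoc, this]
  obtain ⟨Q₁, hE1⟩ := exists_descent_form Q'' σ hcomm j hj
  have hnd'' : (QuadraticMap.polarBilin Q'').Nondegenerate := by
    rw [Cfsg.Agent.Lib.Helper42Quad.nondeg_iff]
    intro x hx
    apply hnd'
    intro y
    have := hx y
    unfold QuadraticMap.polar at this ⊢
    rw [hQ'', hQ'', hQ'', ← mul_sub, ← mul_sub] at this
    exact (mul_eq_zero.1 this).resolve_left (inv_ne_zero hw0)
  obtain ⟨B, c₀, hc₀, hB⟩ := hsim Q₁ (ext_nondeg hE1 hnd'') ⟨M, M', κ⁻¹, inv_ne_zero hw0, e1,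
    fun v => by rw [← hE1, hQ'', hQ']⟩
  have h3 := ext_sim2 hE hE1 (B : Matrix ι ι F₀) c₀ hB
  let hGL : GL ι F := ⟨M, M', e1, e2⟩ * Matrix.GeneralLinearGroup.map j B
  have hcoe : (hGL : Matrix ι ι F) = M * (B : Matrix ι ι F₀).map j := rfl
  have hmem : hGL ∈ GO Q := by
    refine ⟨Units.mk0 (κ * j c₀) (mul_ne_zero hw0 ((map_ne_zero j).2 hc₀)), fun v => ?_⟩
    rw [hcoe, ← Matrix.mulVec_mulVec, ← hQ', Units.val_mk0, mul_assoc, ← h3, hQ'', ← mul_assoc,
      mul_inv_cancel₀ hw0, one_mul]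
  refine ⟨Units.mk0 c hc, ⟨hGL, hmem⟩, ?_⟩
  show (c • ((g : GL ι F) : Matrix ι ι F)) * (hGL : Matrix ι ι F).map σ = (hGL : Matrix ι ι F)
  have hkσ : ((B : Matrix ι ι F₀).map j).map σ = (B : Matrix ι ι F₀).map j := by
    ext x y
    exact (hj _).2 ⟨_, rfl⟩
  have hmm : (M * (B : Matrix ι ι F₀).map j).map σ = M.map σ * ((B : Matrix ι ι F₀).map j).map σ :=
    Matrix.map_mul (f := (σ : F →+* F))
  rw [hcoe, hmm, hkσ, ← mul_assoc, e3]

section conj

variable {Q : QuadraticForm F (ι → F)} {Q₀ : QuadraticForm F₀ (ι → F₀)} {σ : F ≃+* F} {j : F₀ →+* F}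

theorem coe_inlO_mul_fS (hσ : Comm ⇑Q σ) (g : ↥(GO Q)) :
    ((inlO ⇑Q g * fS hσ : ↥(GamO ⇑Q)) : GamL ι F) = ⟨(g : GL ι F), σ⟩ := by
  apply SemidirectProduct.ext
  · show (g : GL ι F) * mapAut (1 : F ≃+* F) (1 : GL ι F) = (g : GL ι F)
    rw [map_one, mul_one]
  · show (1 : F ≃+* F) * σ = σ
    rw [one_mul]

theorem pow_left (g : GL ι F) (σ : F ≃+* F) (k : ℕ) :
    (((⟨g, σ⟩ : GamL ι F) ^ k).left : Matrix ι ι F) = NkM σ (g : Matrix ι ι F) k := by
  induction k with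
  | zero => rfl
  | succ k ih =>
    rw [pow_succ', SemidirectProduct.mul_left, Units.val_mul, coe_mapAut, ih]
    rfl

theorem field_conj_O [Fintype F] (hQ : (QuadraticMap.polarBilin Q).Nondegenerate)
    (hn : 5 ≤ Fintype.card ι) (hσ : Comm ⇑Q σ) (hE : Ext Q Q₀ j)
    (hj : ∀ a, σ a = a ↔ a ∈ Set.range j) (r : ℕ) (hr : orderOf σ = r) (hr0 : 0 < r)
    (hsim : ∀ Q₁ : QuadraticForm F₀ (ι → F₀), (QuadraticMap.polarBilin Q₁).Nondegenerate →
      (∃ (A A' : Matrix ι ι F) (κ : F), κ ≠ 0 ∧ A * A' = 1 ∧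
        ∀ v : ι → F₀, j (Q₁ v) = κ * Q (A *ᵥ fun i => j (v i))) →
      ∃ (B : GL ι F₀) (c₀ : F₀), c₀ ≠ 0 ∧ ∀ v, Q₁ ((B : Matrix ι ι F₀) *ᵥ v) = c₀ * Q₀ v)
    (g : ↥(GO Q)) (h1 : (cAut ⇑Q g * fA hσ) ^ r = 1) :
    ∃ h : ↥(GO Q), cAut ⇑Q g * fA hσ = cAut ⇑Q h * fA hσ * (cAut ⇑Q h)⁻¹ := by
  have hne : Nonempty ι := by
    rw [← Fintype.card_pos_iff]; omega
  obtain ⟨i0⟩ := hne
  have e0 : cAut ⇑Q g * fA hσ = sAut ⇑Q (inlO ⇑Q g * fS hσ) := by
    rw [map_mul, sAut_inlO]; rfl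
  rw [e0, ← map_pow] at h1
  have hsc := left_mem_scalars Q hQ hn _ h1
  obtain ⟨z, hz⟩ := (Geo.mem_scalars_iff _).1 hsc
  rw [Subgroup.coe_pow, coe_inlO_mul_fS, pow_left] at hz
  obtain ⟨c, h, e⟩ := hilbert90_GO hQ hσ hE hj r hr hr0 i0 hsim g z hz
  refine ⟨h, ?_⟩
  have key : inlO ⇑Q (scal Q c) * (inlO ⇑Q g * fS hσ) * inlO ⇑Q h = inlO ⇑Q h * fS hσ := by
    apply Subtype.ext
    rw [Subgroup.coe_mul, Subgroup.coe_mul, coe_inlO_mul_fS, coe_inlO_mul_fS, coe_inlO, coe_inlO]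
    apply SemidirectProduct.ext
    · apply Units.ext
      simp only [SemidirectProduct.mul_left, SemidirectProduct.left_inl, SemidirectProduct.right_inl,
        SemidirectProduct.mul_right, Units.val_mul, coe_mapAut, one_mul, coe_scal]
      rw [← e]
      congr 1
      · have : ((g : GL ι F) : Matrix ι ι F).map ((1 : F ≃+* F)) = ((g : GL ι F) : Matrix ι ι F) := by
          ext a b; rfl
        rw [this, smul_mul_assoc, one_mul]
      · rw [e]
    · simp only [SemidirectProduct.mul_right, SemidirectProduct.right_inl, one_mul, mul_one]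
  have key2 := congrArg (sAut ⇑Q) key
  rw [map_mul, map_mul, ← e0, sAut_inlO, sAut_inlO, cAut_eq_one_of_scalar Q _ (scal_mem Q c),
    one_mul, map_mul, sAut_inlO] at key2
  rw [eq_mul_inv_iff_mul_eq, key2]
  rfl

end conj

end Cfsg.Agent.Lib.Helper42OLang
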