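import Mathlib
import Cfsg.Agent.Lib.Helper42OLang
import Cfsg.Agent.Lib.Helper49OddForm

set_option autoImplicit false
set_option linter.unusedSectionVars false
open Cfsg

/-! Odd-dimensional quadratic forms over finite fields are similar to the standard one. (helper42) -/

namespace Cfsg.Agent.Lib.Helper42OLangOdd

open Matrix Module QuadraticMap
open scoped MatrixGroups
open Cfsg.Agent.Lib.Helper49Forms Cfsg.Agent.Lib.Helper42Quad Cfsg.Agent.Lib.Helper42OLang

variable {F : Type*} [Field F] {m : ℕ}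

theorem polar_QOdd (x y : Unit ⊕ (Fin m ⊕ Fin m) → F) :
    polar ⇑(QOdd m F) x y = 2 * x (Sum.inl ()) * y (Sum.inl ())
      + ∑ i : Fin m, (x (Sum.inr (Sum.inl i)) * y (Sum.inr (Sum.inr i))
        + x (Sum.inr (Sum.inr i)) * y (Sum.inr (Sum.inl i))) := by
  rw [coe_QOdd]
  unfold polar Cfsg.quadFormOdd
  have : ∀ a b c d e f : F, a + b - (c + d) - (e + f) = (a - c - e) + (b - d - f) := by
    intros; ring
  rw [this, ← Finset.sum_sub_distrib, ← Finset.sum_sub_distrib]
  congr 1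
  · simp only [Pi.add_apply]; ring
  · apply Finset.sum_congr rfl
    intro i _
    simp only [Pi.add_apply]; ring

theorem sim_odd [Finite F] (h2 : (2 : F) ≠ 0) (Q₁ : QuadraticForm F (Unit ⊕ (Fin m ⊕ Fin m) → F))
    (h : (polarBilin Q₁).Nondegenerate) :
    ∃ (B : GL (Unit ⊕ (Fin m ⊕ Fin m)) F) (c₀ : F), c₀ ≠ 0 ∧
      ∀ v, Q₁ ((B : Matrix _ _ F) *ᵥ v) = c₀ * QOdd m F v := by
  have hfin : Module.finrank F (Unit ⊕ (Fin m ⊕ Fin m) → F) = 2 * m + 1 := by
    rw [Module.finrank_fintype_fun_eq_card]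
    simp only [Fintype.card_sum, Fintype.card_fin, Fintype.card_unit]
    omega
  rcases std (2 * m + 1) Q₁ h hfin with ⟨k, hk, -⟩ | ⟨k, hk, e, f, x, hH, hP, hx⟩ | ⟨k, hk, -⟩
  · omega
  swap
  · omega
  obtain rfl : k = m := by omega
  obtain ⟨h1, h2', h3, h4, h5⟩ := hH
  obtain ⟨c₀, hc₀⟩ : ∃ c₀, c₀ = Q₁ x := ⟨_, rfl⟩
  rw [← hc₀] at hx
  let col : Unit ⊕ (Fin k ⊕ Fin k) → (Unit ⊕ (Fin k ⊕ Fin k) → F) :=
    Sum.elim (fun _ => x) (Sum.elim e (fun i => c₀ • f i))
  let B : Matrix (Unit ⊕ (Fin k ⊕ Fin k)) (Unit ⊕ (Fin k ⊕ Fin k)) F := Matrix.of (fun a b => col b a)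
  have hB : ∀ i, B *ᵥ Pi.single i 1 = col i := by
    intro i
    funext a
    simp [B]
  have key : ∀ v, Q₁ (B *ᵥ v) = c₀ * QOdd k F v := by
    intro v
    have := qf_ext' (Q₁.comp (Matrix.toLin' B)) (c₀ • QOdd k F) (fun i => ?_) (fun i i' => ?_) v
    · simpa using this
    · show Q₁ (B *ᵥ Pi.single i 1) = c₀ * QOdd k F (Pi.single i 1)
      rw [hB, coe_QOdd]
      rcases i with i | i | i
      · simp [col, Cfsg.quadFormOdd, hc₀]
      · simp [col, Cfsg.quadFormOdd, h1]
      · simp [col, Cfsg.quadFormOdd, h2', QuadraticMap.map_smul]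
    · have e1 : polar ⇑(Q₁.comp (Matrix.toLin' B)) (Pi.single i 1) (Pi.single i' 1)
          = polar ⇑Q₁ (col i) (col i') := by
        unfold polar
        show Q₁ (B *ᵥ (Pi.single i 1 + Pi.single i' 1)) - Q₁ (B *ᵥ Pi.single i 1)
          - Q₁ (B *ᵥ Pi.single i' 1) = _
        rw [Matrix.mulVec_add, hB, hB]
      have e2 : polar ⇑(c₀ • QOdd k F) (Pi.single i 1) (Pi.single i' 1)
          = c₀ * polar ⇑(QOdd k F) (Pi.single i 1) (Pi.single i' 1) := by
        unfold polar
        show c₀ * _ - c₀ * _ - c₀ * _ = _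
        ring
      rw [e1, e2, polar_QOdd]
      rcases i with i | i | i <;> rcases i' with i' | i' | i'
      · simp [col, polar_self, ← hc₀]; ring
      · simp [col, polar_comm (⇑Q₁) x, (hP i').1]
      · simp [col, polar_comm (⇑Q₁) x, (hP i').2, polar_smul_left]
      · simp [col, (hP i).1]
      · simp [col, h4]
      · simp [col, h3, polar_smul_right, Pi.single_apply, eq_comm]
      · simp [col, (hP i).2, polar_smul_left]
      · simp [col, polar_comm (⇑Q₁) _ (e i'), h3, polar_smul_right, Pi.single_apply, eq_comm]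
      · simp [col, h5, polar_smul_left, polar_smul_right]
  have hinj : Function.Injective B.mulVec := by
    intro v w hvw
    have hQ := Cfsg.Agent.Lib.Helper49OddForm.QOdd_nondegenerate h2 k
    rw [nondeg_iff] at hQ
    have h0 : B *ᵥ (v - w) = 0 := by rw [Matrix.mulVec_sub]; exact sub_eq_zero.2 hvw
    have : v - w = 0 := by
      apply hQ
      intro y
      have e3 : c₀ * polar ⇑(QOdd k F) (v - w) y = 0 := by
        unfold polar
        rw [mul_sub, mul_sub, ← key, ← key, ← key, Matrix.mulVec_add, h0]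
        simp
      exact (mul_eq_zero.1 e3).resolve_left hx
    exact sub_eq_zero.1 this
  obtain ⟨u, hu⟩ := Matrix.mulVec_injective_iff_isUnit.1 hinj
  exact ⟨u, c₀, hx, fun v => by rw [hu]; exact key v⟩

end Cfsg.Agent.Lib.Helper42OLangOdd
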