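import Mathlib
import Cfsg.Agent.Lib.Helper42BalA
import Cfsg.Agent.Lib.Helper42OLangOdd

set_option autoImplicit false
set_option linter.unusedSectionVars false
open Cfsg

/-! Local balance for orthogonal groups: the subgroup `Ω(Q₀)` of the fixed points of a field
automorphism. (helper42) -/

namespace Cfsg.Agent.Lib.Helper42BalO

open Matrix Module
open scoped MatrixGroups
open Cfsg.Agent.Lib.Helper49Orth Cfsg.Agent.Lib.Helper49Eich Cfsg.Agent.Lib.Helper49Center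
  Cfsg.Agent.Lib.Helper49Simple Cfsg.Agent.Lib.Helper49CD
  Cfsg.Agent.Lib.Helper51AO2 Cfsg.Agent.Lib.Helper51AO4
  Cfsg.Agent.Lib.Helper51OrthAut Cfsg.Agent.Lib.Helper51OrthIdx
  Cfsg.Agent.Lib.Helper18GamA Cfsg.Agent.Lib.Helper18GamB Cfsg.Agent.Lib.Helper18GamE
  Cfsg.Agent.Lib.Helper18GamF Cfsg.Agent.Lib.Helper18GamG

variable {F : Type*} [Field F] {F₀ : Type*} [Field F₀]
variable {ι : Type} [Fintype ι] [DecidableEq ι]
variable {Q : QuadraticForm F (ι → F)} {Q₀ : QuadraticForm F₀ (ι → F₀)} {j : F₀ →+* F}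
variable {σ : F ≃+* F}

/-- extension of scalars on `Ω` -/
def mapOm (hE : Ext Q Q₀ j) : ↥(Omega F₀ ⇑Q₀) →* ↥(Omega F ⇑Q) :=
  ((mapO hE).comp (Omega F₀ ⇑Q₀).subtype).codRestrict _ (fun g => mapO_mem_Omega hE g.2)

theorem coe_mapOm (hE : Ext Q Q₀ j) (s : ↥(Omega F₀ ⇑Q₀)) :
    ((mapOm hE s : ↥(Omega F ⇑Q)) : ↥(isometryGroup F ⇑Q)) = mapO hE s := rfl

/-- the map `Ω(Q₀) → PΩ(Q)` -/
def lamO (hE : Ext Q Q₀ j) : ↥(Omega F₀ ⇑Q₀) →* POmega F ⇑Q :=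
  (QuotientGroup.mk' (Subgroup.center ↥(Omega F ⇑Q))).comp (mapOm hE)

theorem lamO_apply (hE : Ext Q Q₀ j) (s : ↥(Omega F₀ ⇑Q₀)) :
    lamO hE s = QuotientGroup.mk (mapOm hE s) := rfl

theorem cj_fS (hσ : Comm ⇑Q σ) (g : GL ι F) : cj ((fS hσ : ↥(GamO ⇑Q)) : GamL ι F) g = mapAut σ g := by
  rw [cj_apply]
  show (1 : GL ι F) * mapAut σ g * (1 : GL ι F)⁻¹ = _
  rw [one_mul, inv_one, mul_one]

theorem mapAut_mapO (hE : Ext Q Q₀ j) (hj : ∀ a, σ a = a ↔ a ∈ Set.range j)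
    (s : ↥(isometryGroup F₀ ⇑Q₀)) :
    mapAut σ ((mapO hE s : ↥(isometryGroup F ⇑Q)) : GL ι F) = ((mapO hE s : ↥(isometryGroup F ⇑Q)) : GL ι F) := by
  apply Units.ext
  rw [coe_mapAut, coe_mapO]
  ext a b
  exact (hj _).2 ⟨_, rfl⟩

theorem H2 (hσ : Comm ⇑Q σ) (hE : Ext Q Q₀ j) (hj : ∀ a, σ a = a ↔ a ∈ Set.range j)
    (s : ↥(Omega F₀ ⇑Q₀)) : fA hσ (lamO hE s) = lamO hE s := by
  rw [lamO_apply]
  apply sAut_mk
  rw [cj_fS, coe_mapOm, mapAut_mapO hE hj]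

/-- descent for isometries -/
theorem descentO (hE : Ext Q Q₀ j) (hj : ∀ a, σ a = a ↔ a ∈ Set.range j)
    (u : ↥(isometryGroup F ⇑Q)) (hu : mapAut σ (u : GL ι F) = (u : GL ι F)) :
    ∃ u₀ : ↥(isometryGroup F₀ ⇑Q₀), mapO hE u₀ = u := by
  have h1 : ((u : GL ι F) : Matrix ι ι F).map σ = ((u : GL ι F) : Matrix ι ι F) := by
    rw [← coe_mapAut, hu]
  have h2 : (((u : GL ι F)⁻¹ : GL ι F) : Matrix ι ι F).map σ = (((u : GL ι F)⁻¹ : GL ι F) : Matrix ι ι F) := by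
    rw [← coe_mapAut, map_inv, hu]
  choose M hM using fun a b => (hj _).1 (congrFun (congrFun h1 a) b)
  choose M' hM' using fun a b => (hj _).1 (congrFun (congrFun h2 a) b)
  have e1 : (Matrix.of M).map j = ((u : GL ι F) : Matrix ι ι F) := by ext a b; exact hM a b
  have e2 : (Matrix.of M').map j = (((u : GL ι F)⁻¹ : GL ι F) : Matrix ι ι F) := by
    ext a b; exact hM' a b
  have e3 : Matrix.of M * Matrix.of M' = 1 := by
    apply Matrix.map_injective j.injective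
    show (Matrix.of M * Matrix.of M').map j = (1 : Matrix ι ι F₀).map j
    rw [Matrix.map_mul, e1, e2, ← Units.val_mul, mul_inv_cancel, Units.val_one,
      Matrix.map_one _ (map_zero j) (map_one j)]
  have e4 : Matrix.of M' * Matrix.of M = 1 := by
    apply Matrix.map_injective j.injective
    show (Matrix.of M' * Matrix.of M).map j = (1 : Matrix ι ι F₀).map j
    rw [Matrix.map_mul, e1, e2, ← Units.val_mul, inv_mul_cancel, Units.val_one,
      Matrix.map_one _ (map_zero j) (map_one j)]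
  refine ⟨⟨⟨Matrix.of M, Matrix.of M', e3, e4⟩, ?_⟩, ?_⟩
  · rw [mem_iso]
    intro v
    apply j.injective
    show j (Q₀ (Matrix.of M *ᵥ v)) = _
    rw [← hE, ← hE, ← map_mulVec_j, e1, iso_apply (Q := ⇑Q)]
  · apply iso_ext
    rw [coe_mapO]
    exact e1

theorem lamO_center [Fintype F₀] (hQ₀ : (QuadraticMap.polarBilin Q₀).Nondegenerate)
    (hn : 5 ≤ Fintype.card ι) (hE : Ext Q Q₀ j) (n : ↥(Omega F₀ ⇑Q₀))
    (hn' : n ∈ Subgroup.center ↥(Omega F₀ ⇑Q₀)) : lamO hE n = 1 := by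
  rw [lamO_apply, QuotientGroup.eq_one_iff, Subgroup.mem_center_iff]
  intro g
  apply Subtype.ext
  apply iso_ext
  show (((g : ↥(isometryGroup F ⇑Q)) : GL ι F) : Matrix ι ι F) *
      (((n : ↥(isometryGroup F₀ ⇑Q₀)) : GL ι F₀) : Matrix ι ι F₀).map j
    = (((n : ↥(isometryGroup F₀ ⇑Q₀)) : GL ι F₀) : Matrix ι ι F₀).map j *
      (((g : ↥(isometryGroup F ⇑Q)) : GL ι F) : Matrix ι ι F)
  have h1 : (1 : Matrix ι ι F₀).map j = 1 := Matrix.map_one _ (map_zero j) (map_one j)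
  have h2 : (-1 : Matrix ι ι F₀).map j = -1 := by
    ext a b
    by_cases hab : a = b
    · subst hab; simp
    · simp [hab]
  rcases coe_eq_of_mem_center Q₀ hQ₀ hn hn' with h | h
  · rw [h, h1, mul_one, one_mul]
  · rw [h, h2, mul_neg, neg_mul, mul_one, one_mul]

theorem H3 [Fintype F₀] (hQ₀ : (QuadraticMap.polarBilin Q₀).Nondegenerate)
    (hn : 5 ≤ Fintype.card ι) (hE : Ext Q Q₀ j) (p : ℕ) (t₀ : ↥(Omega F₀ ⇑Q₀))
    (ht₀ : orderOf (lamO hE t₀) = p) (N : Subgroup ↥(Omega F₀ ⇑Q₀)) (hN : N.Normal) :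
    (∀ n ∈ N, lamO hE n = 1) ∨ ∃ t ∈ N, orderOf (lamO hE t) = p := by
  have hs := POmega_simple Q₀ hQ₀ hn
  have hN' : (N.map (QuotientGroup.mk' (Subgroup.center ↥(Omega F₀ ⇑Q₀)))).Normal :=
    hN.map _ (QuotientGroup.mk'_surjective _)
  rcases hN'.eq_bot_or_eq_top with h | h
  · left
    intro n hn'
    apply lamO_center hQ₀ hn
    have h1 : QuotientGroup.mk' (Subgroup.center ↥(Omega F₀ ⇑Q₀)) n ∈
        N.map (QuotientGroup.mk' (Subgroup.center ↥(Omega F₀ ⇑Q₀))) := Subgroup.mem_map_of_mem _ hn'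
    rw [h, Subgroup.mem_bot] at h1
    exact (QuotientGroup.eq_one_iff n).1 h1
  · right
    have h1 : QuotientGroup.mk' (Subgroup.center ↥(Omega F₀ ⇑Q₀)) t₀ ∈
        N.map (QuotientGroup.mk' (Subgroup.center ↥(Omega F₀ ⇑Q₀))) := by rw [h]; trivial
    obtain ⟨n, hn', e⟩ := h1
    refine ⟨n, hn', ?_⟩
    have h2 : n⁻¹ * t₀ ∈ Subgroup.center ↥(Omega F₀ ⇑Q₀) := QuotientGroup.eq.1 e
    have h3 : lamO hE t₀ = lamO hE n := by
      have : t₀ = n * (n⁻¹ * t₀) := by group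
      rw [this, map_mul, lamO_center hQ₀ hn hE _ h2, mul_one]
    rw [← h3, ht₀]

open scoped commutatorElement in
theorem comm_mem' {G : Type*} [Group G] (a b : G) : a * b * a⁻¹ * b⁻¹ ∈ commutator G := by
  rw [← commutatorElement_def]
  exact Subgroup.commutator_mem_commutator (Subgroup.mem_top _) (Subgroup.mem_top _)

theorem detO_Omega (z : ↥(isometryGroup F ⇑Q)) (hz : z ∈ Omega F ⇑Q) : detO Q z = 1 :=
  Abelianization.commutator_subset_ker (detO Q) hz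

/-- in odd dimension the fixed points of a field automorphism on `PΩ` lift to fixed matrices -/
theorem fix_odd [Fintype F] (hQ : (QuadraticMap.polarBilin Q).Nondegenerate)
    (hn : 5 ≤ Fintype.card ι) (hodd : Odd (Fintype.card ι)) (h2 : (2 : F) ≠ 0) (hσ : Comm ⇑Q σ)
    (u : ↥(Omega F ⇑Q)) (hu : fA hσ (QuotientGroup.mk u) = QuotientGroup.mk u) :
    mapAut σ ((u : ↥(isometryGroup F ⇑Q)) : GL ι F) = ((u : ↥(isometryGroup F ⇑Q)) : GL ι F) := by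
  have h1 : fA hσ (QuotientGroup.mk u) = QuotientGroup.mk (sOm ⇑Q (fS hσ) u) := sAut_mk' _ _ _
  rw [h1] at hu
  have h3 : u⁻¹ * sOm ⇑Q (fS hσ) u ∈ Subgroup.center ↥(Omega F ⇑Q) := QuotientGroup.eq.1 hu.symm
  have h4 : (((sOm ⇑Q (fS hσ) u : ↥(Omega F ⇑Q)) : ↥(isometryGroup F ⇑Q)) : GL ι F)
      = mapAut σ ((u : ↥(isometryGroup F ⇑Q)) : GL ι F) := by
    rw [coe_sOm, cj_fS]
  rcases coe_eq_of_mem_center Q hQ hn h3 with h | h
  · have h5 : u⁻¹ * sOm ⇑Q (fS hσ) u = 1 := by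
      apply Subtype.ext
      apply iso_ext
      exact h
    rw [inv_mul_eq_one] at h5
    rw [← h4, ← h5]
  · exfalso
    have h5 := detO_Omega _ (u⁻¹ * sOm ⇑Q (fS hσ) u).2
    have h6 := congrArg (fun c : Fˣ => (c : F)) h5
    simp only [detO_apply, Units.val_one] at h6
    rw [h, Matrix.det_neg, Matrix.det_one, hodd.neg_one_pow] at h6
    apply h2
    linear_combination -h6

theorem H4 [Fintype F] (hQ : (QuadraticMap.polarBilin Q).Nondegenerate)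
    (hn : 5 ≤ Fintype.card ι) (hodd : Odd (Fintype.card ι)) (h2 : (2 : F) ≠ 0) (hσ : Comm ⇑Q σ)
    (hE : Ext Q Q₀ j) (hj : ∀ a, σ a = a ↔ a ∈ Set.range j)
    (k : POmega F ⇑Q) (hk : fA hσ k = k) (s : ↥(Omega F₀ ⇑Q₀)) :
    ∃ t, k * lamO hE s * k⁻¹ * (lamO hE s)⁻¹ = lamO hE t := by
  obtain ⟨u, rfl⟩ := QuotientGroup.mk_surjective k
  obtain ⟨u₀, hu₀⟩ := descentO hE hj _ (fix_odd hQ hn hodd h2 hσ u hk)
  refine ⟨⟨u₀ * s * u₀⁻¹ * (s : ↥(isometryGroup F₀ ⇑Q₀))⁻¹, comm_mem' _ _⟩, ?_⟩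
  rw [lamO_apply, lamO_apply]
  have h1 : mapOm hE ⟨u₀ * s * u₀⁻¹ * (s : ↥(isometryGroup F₀ ⇑Q₀))⁻¹, comm_mem' _ _⟩
      = u * mapOm hE s * u⁻¹ * (mapOm hE s)⁻¹ := by
    apply Subtype.ext
    show mapO hE (u₀ * s * u₀⁻¹ * (s : ↥(isometryGroup F₀ ⇑Q₀))⁻¹) = _
    rw [map_mul, map_mul, map_mul, map_inv, map_inv, hu₀]
    rfl
  rw [h1]
  rfl

/-! ### an element of order `p` in `Ω(Q₀)` -/

theorem sq_mem (h2 : (2 : F) ≠ 0) (hQ : (QuadraticMap.polarBilin Q).Nondegenerate)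
    (y : ↥(isometryGroup F ⇑Q)) : y * y ∈ Omega F ⇑Q := by
  let χ : ↥(isometryGroup F ⇑Q) →* Abelianization ↥(isometryGroup F ⇑Q) :=
    (powMonoidHom 2).comp Abelianization.of
  have hχ : ∀ y, χ y = Abelianization.of (y * y) := by
    intro y
    show (Abelianization.of y) ^ 2 = _
    rw [pow_two, map_mul]
  obtain ⟨vs, hvs, rfl⟩ := exists_list_refl Q h2 hQ y
  have h1 : χ (vs.map (reflO' Q)).prod = 1 := by
    rw [map_list_prod]
    apply List.prod_eq_one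
    intro x hx
    obtain ⟨y, hy, rfl⟩ := List.mem_map.1 hx
    obtain ⟨v, hv, rfl⟩ := List.mem_map.1 hy
    rw [hχ, reflO'_eq Q (hvs v hv), reflO_mul_self, map_one]
  rw [hχ] at h1
  exact (QuotientGroup.eq_one_iff _).1 h1

theorem exists_t0_odd [Fintype F] [Fintype F₀] (hQ : (QuadraticMap.polarBilin Q).Nondegenerate)
    (hQ₀ : (QuadraticMap.polarBilin Q₀).Nondegenerate)
    (hn : 5 ≤ Fintype.card ι) (hodd : Odd (Fintype.card ι)) (h2 : (2 : F) ≠ 0) (h2' : (2 : F₀) ≠ 0)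
    (hσ : Comm ⇑Q σ) (hE : Ext Q Q₀ j) (hj : ∀ a, σ a = a ↔ a ∈ Set.range j)
    (p : ℕ) [Fact p.Prime] (hp2 : p ≠ 2)
    (hdvd : p ∣ Nat.card ↥(MonoidHom.eqLocus (fA hσ).toMonoidHom (MonoidHom.id (POmega F ⇑Q)))) :
    ∃ t₀ : ↥(Omega F₀ ⇑Q₀), orderOf (lamO hE t₀) = p := by
  have hp : p.Prime := Fact.out
  obtain ⟨k, hk⟩ := exists_prime_orderOf_dvd_card' p hdvd
  rw [← Subgroup.orderOf_coe] at hk
  have hfix : fA hσ (k : POmega F ⇑Q) = k := k.2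
  obtain ⟨u, hu⟩ := QuotientGroup.mk_surjective (k : POmega F ⇑Q)
  rw [← hu] at hfix hk
  obtain ⟨u₀, hu₀⟩ := descentO hE hj _ (fix_odd hQ hn hodd h2 hσ u hfix)
  refine ⟨⟨u₀ * u₀, sq_mem h2' hQ₀ u₀⟩, ?_⟩
  have h1 : mapOm hE ⟨u₀ * u₀, sq_mem h2' hQ₀ u₀⟩ = u * u := by
    apply Subtype.ext
    show mapO hE (u₀ * u₀) = _
    rw [map_mul, hu₀]
    rfl
  rw [lamO_apply, h1]
  have h3 : (QuotientGroup.mk (u * u) : POmega F ⇑Q) = (QuotientGroup.mk u) ^ 2 := by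
    rw [pow_two]; rfl
  rw [h3, Nat.Coprime.orderOf_pow, hk]
  rw [hk]
  exact (Nat.coprime_primes hp Nat.prime_two).2 hp2

theorem exists_t0_two [Fintype F] (hQ : (QuadraticMap.polarBilin Q).Nondegenerate)
    (hn : 5 ≤ Fintype.card ι) (h2 : (2 : F) ≠ 0) (h2' : (2 : F₀) ≠ 0) (hE : Ext Q Q₀ j)
    (u v : ι → F₀) (hu : Q₀ u ≠ 0) (huv : Q₀ u = Q₀ v) (hpol : QuadraticMap.polar ⇑Q₀ u v = 0) :
    ∃ t₀ : ↥(Omega F₀ ⇑Q₀), orderOf (lamO hE t₀) = 2 := by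
  have hv : Q₀ v ≠ 0 := huv ▸ hu
  have hmem : reflO Q₀ hu * reflO Q₀ hv ∈ Omega F₀ ⇑Q₀ :=
    reflO_mul_reflO_mem Q₀ h2' hu hv ⟨Q₀ u, by rw [huv]⟩
  have hcomm : reflO Q₀ hu * reflO Q₀ hv = reflO Q₀ hv * reflO Q₀ hu := by
    apply iso_ext
    show reflectionMatrix ⇑Q₀ u * reflectionMatrix ⇑Q₀ v
      = reflectionMatrix ⇑Q₀ v * reflectionMatrix ⇑Q₀ u
    have := conj_refl Q₀ (reflO Q₀ hu) v
    rw [coe_reflO, refl_of_polar_eq_zero Q₀ hpol] at this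
    exact this
  refine ⟨⟨_, hmem⟩, ?_⟩
  apply orderOf_eq_prime
  · rw [← map_pow, pow_two]
    have : (⟨_, hmem⟩ : ↥(Omega F₀ ⇑Q₀)) * ⟨_, hmem⟩ = 1 := by
      apply Subtype.ext
      show reflO Q₀ hu * reflO Q₀ hv * (reflO Q₀ hu * reflO Q₀ hv) = 1
      calc reflO Q₀ hu * reflO Q₀ hv * (reflO Q₀ hu * reflO Q₀ hv)
          = reflO Q₀ hu * reflO Q₀ hv * (reflO Q₀ hv * reflO Q₀ hu) := by rw [hcomm]
        _ = reflO Q₀ hu * (reflO Q₀ hv * reflO Q₀ hv) * reflO Q₀ hu := by group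
        _ = 1 := by rw [reflO_mul_self, mul_one, reflO_mul_self]
    rw [this, map_one]
  · rw [lamO_apply, Ne, QuotientGroup.eq_one_iff]
    intro hc
    have hcoe : (((mapOm hE ⟨_, hmem⟩ : ↥(Omega F ⇑Q)) : ↥(isometryGroup F ⇑Q)) : GL ι F).val
        = reflectionMatrix ⇑Q (jv j u) * reflectionMatrix ⇑Q (jv j v) := by
      rw [coe_mapOm]
      show ((mapO hE (reflO Q₀ hu * reflO Q₀ hv) : ↥(isometryGroup F ⇑Q)) : GL ι F).val = _
      rw [map_mul, mapO_reflO, mapO_reflO]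
      rfl
    have hju : Q (jv j u) ≠ 0 := ne_zero_jv hE hu
    have hpol' : QuadraticMap.polar ⇑Q (jv j v) (jv j u) = 0 := by
      rw [polar_jv hE, QuadraticMap.polar_comm, hpol, map_zero]
    rcases coe_eq_of_mem_center Q hQ hn hc with h | h
    · have h3 := congrArg (fun M : Matrix ι ι F => M *ᵥ jv j u) (hcoe.symm.trans h)
      simp only [← Matrix.mulVec_mulVec, Matrix.one_mulVec] at h3
      rw [refl_of_polar_eq_zero Q hpol', refl_self Q hju] at h3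
      have h4 : (2 : F) • jv j u = 0 := by
        rw [two_smul]
        nth_rewrite 1 [← h3]
        exact neg_add_cancel _
      have h5 : jv j u = 0 := (smul_eq_zero.1 h4).resolve_left h2
      rw [h5, QuadraticMap.map_zero] at hju
      exact hju rfl
    · obtain ⟨w, hw0, hw1, hw2, -, -⟩ := exists_orth4 Q hQ hn (jv j u) (jv j v) 0 0
      have h3 := congrArg (fun M : Matrix ι ι F => M *ᵥ w) (hcoe.symm.trans h)
      simp only [← Matrix.mulVec_mulVec, Matrix.neg_mulVec, Matrix.one_mulVec] at h3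
      rw [refl_of_polar_eq_zero Q hw2, refl_of_polar_eq_zero Q hw1] at h3
      have h4 : (2 : F) • w = 0 := by
        rw [two_smul]
        nth_rewrite 1 [h3]
        exact neg_add_cancel _
      exact hw0 ((smul_eq_zero.1 h4).resolve_left h2)

end Cfsg.Agent.Lib.Helper42BalO
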