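import Mathlib
import Cfsg.Agent.Lib.Helper42BalO

set_option autoImplicit false
set_option linter.unusedSectionVars false
open Cfsg

/-! Local balance for orthogonal groups: automorphisms fixing `Ω(Q₀)` pointwise. (helper42) -/

namespace Cfsg.Agent.Lib.Helper42BalO2

open Matrix Module
open scoped MatrixGroups
open Cfsg.Agent.Lib.Helper49Orth Cfsg.Agent.Lib.Helper49Eich Cfsg.Agent.Lib.Helper49Center
  Cfsg.Agent.Lib.Helper49Simple Cfsg.Agent.Lib.Helper49CD Cfsg.Agent.Lib.Helper49Forms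
  Cfsg.Agent.Lib.Helper49Disc
  Cfsg.Agent.Lib.Helper51AO2 Cfsg.Agent.Lib.Helper51AO4
  Cfsg.Agent.Lib.Helper51OrthAut Cfsg.Agent.Lib.Helper51OrthIdx
  Cfsg.Agent.Lib.Helper18GamA Cfsg.Agent.Lib.Helper18GamB Cfsg.Agent.Lib.Helper18GamE
  Cfsg.Agent.Lib.Helper18GamF Cfsg.Agent.Lib.Helper18GamG Cfsg.Agent.Lib.Helper42BalO

variable {F : Type*} [Field F] {F₀ : Type*} [Field F₀]
variable {ι : Type} [Fintype ι] [DecidableEq ι]
variable {Q : QuadraticForm F (ι → F)} {Q₀ : QuadraticForm F₀ (ι → F₀)} {j : F₀ →+* F}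

local notation "𝐁" => QuadraticMap.polar (DFunLike.coe Q)
local notation "sv" => (fun k : ι => (Pi.single k 1 : ι → F))

theorem jv_smul (c : F₀) (v : ι → F₀) : jv j (c • v) = j c • jv j v := by
  funext i
  simp [jv]

theorem jv_sub (u v : ι → F₀) : jv j (u - v) = jv j u - jv j v := by
  funext i
  simp [jv]

theorem jv_single (k : ι) : jv j (Pi.single k 1) = (Pi.single k 1 : ι → F) :=
  Helper18GamE.map_single k

theorem mapO_E (hE : Ext Q Q₀ j) {u w : ι → F₀} (hu : Q₀ u = 0)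
    (hw : QuadraticMap.polar ⇑Q₀ u w = 0) : mapO hE (E Q₀ u w) = E Q (jv j u) (jv j w) := by
  have hu' : Q (jv j u) = 0 := by rw [Q_jv hE, hu, map_zero]
  have hw' : 𝐁 (jv j u) (jv j w) = 0 := by rw [polar_jv hE, hw, map_zero]
  apply iso_ext
  apply Matrix.ext_of_mulVec_single
  intro k
  rw [← jv_single (j := j) k, coe_mapO]
  have h1 : (((E Q₀ u w : ↥(isometryGroup F₀ ⇑Q₀)) : GL ι F₀) : Matrix ι ι F₀).map j
      *ᵥ jv j (Pi.single k 1) = jv j ((((E Q₀ u w : ↥(isometryGroup F₀ ⇑Q₀)) : GL ι F₀) :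
        Matrix ι ι F₀) *ᵥ Pi.single k 1) := map_mulVec_j _ _
  rw [h1, E_apply Q₀ hu hw, E_apply Q hu' hw', jv_sub, jv_add, jv_smul, jv_smul, polar_jv hE,
    polar_jv hE, Q_jv hE, map_sub, map_mul]

theorem lamO_EO [Fintype F] [Fintype F₀] (hQ : (QuadraticMap.polarBilin Q).Nondegenerate)
    (hQ₀ : (QuadraticMap.polarBilin Q₀).Nondegenerate) (hn : 5 ≤ Fintype.card ι)
    (hE : Ext Q Q₀ j) {u w : ι → F₀} (hu : Q₀ u = 0) (hw : QuadraticMap.polar ⇑Q₀ u w = 0) :
    lamO hE (EO Q₀ u w) = Pb Q (jv j u) (jv j w) := by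
  rw [lamO_apply]
  unfold Pb
  congr 1
  apply Subtype.ext
  rw [coe_mapOm, coe_EO Q₀ hQ₀ hn, mapO_E hE hu hw, coe_EO Q hQ hn]

theorem hyp_of_hypPair {a b : ι} (H : HypPair Q a b) : Hyp Q (Pi.single a 1) (Pi.single b 1) where
  he := by
    have := H.Q_st 1 0
    simpa using this
  hf := by
    have := H.Q_st 0 1
    simpa using this
  hef := by rw [HypPair.polar_left H]; simp

section fix

variable [Fintype F] (hQ : (QuadraticMap.polarBilin Q).Nondegenerate) (hn : 5 ≤ Fintype.card ι)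
  (X : ↥(GamO ⇑Q)) {c : F} (S : SemiSim Q (act (X : GamL ι F)) (X : GamL ι F).right c)

include hQ hn S

theorem eigen (a b b' : ι) (hab : a ≠ b) (hab' : a ≠ b') (hbb' : b ≠ b')
    (ha : Q (Pi.single a 1) = 0) (h1 : 𝐁 (Pi.single a 1) (Pi.single b 1) = 0)
    (h2 : 𝐁 (Pi.single a 1) (Pi.single b' 1) = 0)
    (f1 : sAut ⇑Q X (Pb Q (Pi.single a 1) (Pi.single b 1)) = Pb Q (Pi.single a 1) (Pi.single b 1))
    (f2 : sAut ⇑Q X (Pb Q (Pi.single a 1) (Pi.single b' 1)) = Pb Q (Pi.single a 1) (Pi.single b' 1)) :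
    ∃ l : F, act (X : GamL ι F) (Pi.single a 1) = l • Pi.single a 1 := by
  obtain ⟨v, hv⟩ : ∃ v, v = act (X : GamL ι F) (Pi.single a 1) := ⟨_, rfl⟩
  rw [← hv]
  have hQv : Q v = 0 := by rw [hv, S.quad, ha]; simp
  have hs0 : (Pi.single a 1 : ι → F) ≠ 0 := by
    intro h
    have := congrFun h a
    simp at this
  by_cases hmem : (Pi.single a 1 : ι → F) ∈ Submodule.span F {v}
  · obtain ⟨t, ht⟩ := Submodule.mem_span_singleton.1 hmem
    have ht0 : t ≠ 0 := by
      rintro rfl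
      rw [zero_smul] at ht
      exact hs0 ht.symm
    exact ⟨t⁻¹, by rw [← ht, smul_smul, inv_mul_cancel₀ ht0, one_smul]⟩
  · exfalso
    have e1 := sAut_Pb Q hQ hn X S ha h1
    have e2 := sAut_Pb Q hQ hn X S ha h2
    rw [f1, ← hv] at e1
    rw [f2, ← hv] at e2
    obtain ⟨α, β, hb⟩ := mem_span_of_E_eq Q hQ ha h1 hQv
      (by rw [QuadraticMap.polar_smul_right, hv, S.polar, h1]; simp) hmem (E_eq_of_Pb_eq Q hQ hn e1)
    obtain ⟨α', β', hb'⟩ := mem_span_of_E_eq Q hQ ha h2 hQv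
      (by rw [QuadraticMap.polar_smul_right, hv, S.polar, h2]; simp) hmem (E_eq_of_Pb_eq Q hQ hn e2)
    have h3 : β' • (Pi.single b 1 : ι → F) - β • (Pi.single b' 1 : ι → F)
        = (β' * α - β * α') • (Pi.single a 1 : ι → F) := by
      rw [hb, hb', smul_add, smul_add, smul_smul, smul_smul, smul_smul, smul_smul, sub_smul,
        mul_comm β' β]
      abel
    have c1 := congrFun h3 b
    have c2 := congrFun h3 b'
    simp [hab.symm, hab'.symm, hbb', hbb'.symm] at c1 c2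
    rw [c2, zero_smul, add_zero] at hb
    have c3 := congrFun hb b
    simp [hab.symm] at c3

theorem relation (a a' b : ι) (H : Hyp Q (Pi.single a 1) (Pi.single a' 1))
    (hb1 : 𝐁 (Pi.single a 1) (Pi.single b 1) = 0) (hb2 : 𝐁 (Pi.single a' 1) (Pi.single b 1) = 0)
    {la lb : F} (hla : act (X : GamL ι F) (Pi.single a 1) = la • Pi.single a 1)
    (hlb : act (X : GamL ι F) (Pi.single b 1) = lb • Pi.single b 1) (t : F)
    (f : sAut ⇑Q X (Pb Q (Pi.single a 1) (t • Pi.single b 1)) = Pb Q (Pi.single a 1) (t • Pi.single b 1)) :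
    (X : GamL ι F).right t * la * lb = c * t := by
  have h0 : 𝐁 (Pi.single a 1) (t • Pi.single b 1) = 0 := by
    rw [QuadraticMap.polar_smul_right, hb1, smul_zero]
  have e1 := sAut_Pb Q hQ hn X S H.he h0
  rw [f, hla, S.smul, hlb] at e1
  have h1 : 𝐁 (Pi.single a 1) (c⁻¹ • (X : GamL ι F).right t • lb • Pi.single b 1) = 0 := by
    simp only [QuadraticMap.polar_smul_right, hb1, smul_zero]
  have e2 : Pb Q (la • Pi.single a 1) (c⁻¹ • (X : GamL ι F).right t • lb • Pi.single b 1)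
      = Pb Q (Pi.single a 1) (la • c⁻¹ • (X : GamL ι F).right t • lb • Pi.single b 1) :=
    Pb_eq_of_E_eq Q hQ hn (E_smul Q H.he h1 la)
  rw [e2] at e1
  have e3 := H.Pb_inj hQ hn h0 (by rw [QuadraticMap.polar_smul_right, hb2, smul_zero])
    (by simp only [QuadraticMap.polar_smul_right, hb1, smul_zero])
    (by simp only [QuadraticMap.polar_smul_right, hb2, smul_zero]) e1
  have e4 := congrFun e3 b
  simp only [Pi.smul_apply, Pi.single_eq_same, smul_eq_mul, mul_one] at e4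
  have hc := S.c_ne
  have e5 : c * t = c * (la * (c⁻¹ * ((X : GamL ι F).right t * lb))) := by rw [← e4]
  rw [e5]
  field_simp

end fix

section odd

variable {m : ℕ}

theorem pe {K : Type*} [Field K] (i : Fin m) (x : Unit ⊕ (Fin m ⊕ Fin m) → K) :
    QuadraticMap.polar ⇑(QOdd m K) (Pi.single (Sum.inr (Sum.inl i)) 1) x = x (Sum.inr (Sum.inr i)) :=
  HypPair.polar_left (hypPair_QOdd m i) x

theorem pf {K : Type*} [Field K] (i : Fin m) (x : Unit ⊕ (Fin m ⊕ Fin m) → K) :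
    QuadraticMap.polar ⇑(QOdd m K) (Pi.single (Sum.inr (Sum.inr i)) 1) x = x (Sum.inr (Sum.inl i)) :=
  HypPair.polar_right (hypPair_QOdd m i) x

theorem comm_QOdd (τ : F ≃+* F) : Comm ⇑(QOdd m F) τ := by
  intro v
  rw [coe_QOdd]
  simp [Cfsg.quadFormOdd]

theorem act_single (X : GamL ι F) (k : ι) :
    act X (Pi.single k 1) = (X.left : Matrix ι ι F) *ᵥ Pi.single k 1 := by
  unfold act
  congr 1
  funext a
  by_cases h : a = k
  · subst h; simp
  · simp [h]

theorem fix_lam_odd [Fintype F] [Fintype F₀] (hm : 2 ≤ m) (h2 : (2 : F) ≠ 0) (h2' : (2 : F₀) ≠ 0)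
    (hE : Ext (QOdd m F) (QOdd m F₀) j) (hsurj : Function.Surjective (sAut ⇑(QOdd m F)))
    (β : MulAut (POmega F ⇑(QOdd m F))) (hβ : ∀ s, β (lamO hE s) = lamO hE s) :
    ∃ τ : F ≃+* F, β = fA (comm_QOdd τ) ∧ ∀ a, τ (j a) = j a := by
  have hQ := Cfsg.Agent.Lib.Helper49OddForm.QOdd_nondegenerate h2 m
  have hQ₀ := Cfsg.Agent.Lib.Helper49OddForm.QOdd_nondegenerate h2' m
  have hn : 5 ≤ Fintype.card (Unit ⊕ (Fin m ⊕ Fin m)) := by
    simp only [Fintype.card_sum, Fintype.card_fin, Fintype.card_unit]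
    omega
  obtain ⟨X, rfl⟩ := hsurj β
  obtain ⟨c, S⟩ := semiSim (QOdd m F) X
  have hc := S.c_ne
  have fs : ∀ (a b : Unit ⊕ (Fin m ⊕ Fin m)) (t : F₀), QOdd m F₀ (Pi.single a 1) = 0 →
      QuadraticMap.polar ⇑(QOdd m F₀) (Pi.single a 1) (Pi.single b 1) = 0 →
      sAut ⇑(QOdd m F) X (Pb (QOdd m F) (Pi.single a 1) (j t • Pi.single b 1))
        = Pb (QOdd m F) (Pi.single a 1) (j t • Pi.single b 1) := by
    intro a b t h1 h3
    have h4 : QuadraticMap.polar ⇑(QOdd m F₀) (Pi.single a 1) (t • Pi.single b 1) = 0 := by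
      rw [QuadraticMap.polar_smul_right, h3, smul_zero]
    have := hβ (EO (QOdd m F₀) (Pi.single a 1) (t • Pi.single b 1))
    rwa [lamO_EO hQ hQ₀ hn hE h1 h4, jv_smul, jv_single, jv_single] at this
  have fs1 : ∀ (a b : Unit ⊕ (Fin m ⊕ Fin m)), QOdd m F₀ (Pi.single a 1) = 0 →
      QuadraticMap.polar ⇑(QOdd m F₀) (Pi.single a 1) (Pi.single b 1) = 0 →
      sAut ⇑(QOdd m F) X (Pb (QOdd m F) (Pi.single a 1) (Pi.single b 1))
        = Pb (QOdd m F) (Pi.single a 1) (Pi.single b 1) := by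
    intro a b h1 h3
    have := fs a b 1 h1 h3
    rwa [map_one, one_smul] at this
  have HF : ∀ i : Fin m, Hyp (QOdd m F) (Pi.single (Sum.inr (Sum.inl i)) 1)
      (Pi.single (Sum.inr (Sum.inr i)) 1) := fun i => hyp_of_hypPair (hypPair_QOdd m i)
  have HF₀ : ∀ i : Fin m, Hyp (QOdd m F₀) (Pi.single (Sum.inr (Sum.inl i)) 1)
      (Pi.single (Sum.inr (Sum.inr i)) 1) := fun i => hyp_of_hypPair (hypPair_QOdd m i)
  have : Nontrivial (Fin m) := Fin.nontrivial_iff_two_le.2 hm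
  have he : ∀ i : Fin m, ∃ l : F, act (X : GamL (Unit ⊕ (Fin m ⊕ Fin m)) F) (Pi.single (Sum.inr (Sum.inl i)) 1)
      = l • Pi.single (Sum.inr (Sum.inl i)) 1 := by
    intro i
    obtain ⟨k, hk⟩ := exists_ne i
    apply eigen hQ hn X S (Sum.inr (Sum.inl i)) (Sum.inr (Sum.inl k)) (Sum.inr (Sum.inr k))
      (by simp [hk.symm]) (by simp) (by simp) (HF i).he (by rw [pe]; simp)
      (by rw [pe]; simp [hk.symm])
    · exact fs1 _ _ (HF₀ i).he (by rw [pe]; simp)
    · exact fs1 _ _ (HF₀ i).he (by rw [pe]; simp [hk.symm])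
  have hf : ∀ i : Fin m, ∃ l : F, act (X : GamL (Unit ⊕ (Fin m ⊕ Fin m)) F) (Pi.single (Sum.inr (Sum.inr i)) 1)
      = l • Pi.single (Sum.inr (Sum.inr i)) 1 := by
    intro i
    obtain ⟨k, hk⟩ := exists_ne i
    apply eigen hQ hn X S (Sum.inr (Sum.inr i)) (Sum.inr (Sum.inl k)) (Sum.inr (Sum.inr k))
      (by simp) (by simp [hk.symm]) (by simp) (HF i).hf (by rw [pf]; simp [hk.symm])
      (by rw [pf]; simp)
    · exact fs1 _ _ (HF₀ i).hf (by rw [pf]; simp [hk.symm])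
    · exact fs1 _ _ (HF₀ i).hf (by rw [pf]; simp)
  choose le hle using he
  choose lf hlf using hf
  have hs0 : ∀ k : Unit ⊕ (Fin m ⊕ Fin m), (Pi.single k 1 : Unit ⊕ (Fin m ⊕ Fin m) → F) ≠ 0 := by
    intro k h
    have := congrFun h k
    simp at this
  have hle0 : ∀ i, le i ≠ 0 := by
    intro i h
    have := hle i
    rw [h, zero_smul] at this
    exact hs0 _ (S.inj hQ this)
  have hlf0 : ∀ i, lf i ≠ 0 := by
    intro i h
    have := hlf i
    rw [h, zero_smul] at this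
    exact hs0 _ (S.inj hQ this)
  obtain ⟨lz, hlz⟩ : ∃ lz : F, act (X : GamL (Unit ⊕ (Fin m ⊕ Fin m)) F) (Pi.single (Sum.inl ()) 1)
      = lz • Pi.single (Sum.inl ()) 1 := by
    refine ⟨act (X : GamL (Unit ⊕ (Fin m ⊕ Fin m)) F) (Pi.single (Sum.inl ()) 1) (Sum.inl ()), ?_⟩
    funext k
    rcases k with k | k | k
    · simp
    · have h1 := S.polar (Pi.single (Sum.inr (Sum.inr k)) 1) (Pi.single (Sum.inl ()) 1)
      rw [hlf, QuadraticMap.polar_smul_left, pf, pf] at h1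
      simp only [smul_eq_mul] at h1
      have h3 : (Pi.single (Sum.inl ()) 1 : Unit ⊕ (Fin m ⊕ Fin m) → F) (Sum.inr (Sum.inl k)) = 0 := by
        simp
      rw [h3, map_zero, mul_zero] at h1
      rw [(mul_eq_zero.1 h1).resolve_left (hlf0 k)]
      simp
    · have h1 := S.polar (Pi.single (Sum.inr (Sum.inl k)) 1) (Pi.single (Sum.inl ()) 1)
      rw [hle, QuadraticMap.polar_smul_left, pe, pe] at h1
      simp only [smul_eq_mul] at h1
      have h3 : (Pi.single (Sum.inl ()) 1 : Unit ⊕ (Fin m ⊕ Fin m) → F) (Sum.inr (Sum.inr k)) = 0 := by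
        simp
      rw [h3, map_zero, mul_zero] at h1
      rw [(mul_eq_zero.1 h1).resolve_left (hle0 k)]
      simp
  have r1 : ∀ i k : Fin m, k ≠ i → le i * le k = c := by
    intro i k hk
    have := relation hQ hn X S (Sum.inr (Sum.inl i)) (Sum.inr (Sum.inr i)) (Sum.inr (Sum.inl k))
      (HF i) (by rw [pe]; simp) (by rw [pf]; simp [hk.symm]) (hle i) (hle k) 1
      (by rw [one_smul]; exact fs1 _ _ (HF₀ i).he (by rw [pe]; simp))
    rwa [map_one, one_mul, mul_one] at this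
  have r2 : ∀ (i : Fin m) (t : F₀), (X : GamL (Unit ⊕ (Fin m ⊕ Fin m)) F).right (j t) * le i * lz = c * j t := by
    intro i t
    exact relation hQ hn X S (Sum.inr (Sum.inl i)) (Sum.inr (Sum.inr i)) (Sum.inl ())
      (HF i) (by rw [pe]; simp) (by rw [pf]; simp) (hle i) hlz (j t)
      (fs _ _ t (HF₀ i).he (by rw [pe]; simp))
  have r3 : ∀ i : Fin m, lf i * lz = c := by
    intro i
    have := relation hQ hn X S (Sum.inr (Sum.inr i)) (Sum.inr (Sum.inl i)) (Sum.inl ())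
      (HF i).symm (by rw [pf]; simp) (by rw [pe]; simp) (hlf i) hlz 1
      (by rw [one_smul]; exact fs1 _ _ (HF₀ i).hf (by rw [pf]; simp))
    rwa [map_one, one_mul, mul_one] at this
  have r2' : ∀ i : Fin m, le i * lz = c := by
    intro i
    have := r2 i 1
    rwa [map_one, map_one, one_mul, mul_one] at this
  have hlek : ∀ k, le k = lz := by
    intro k
    obtain ⟨i, hi⟩ := exists_ne k
    have h1 := r1 i k hi.symm
    rw [← r2' i] at h1
    exact mul_left_cancel₀ (hle0 i) h1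
  have hlz0 : lz ≠ 0 := by
    obtain ⟨i⟩ : Nonempty (Fin m) := inferInstance
    rw [← hlek i]; exact hle0 i
  have hlfk : ∀ k, lf k = lz := by
    intro k
    have h1 := r3 k
    rw [← r2' k, hlek] at h1
    exact mul_right_cancel₀ hlz0 h1
  have hcz : c = lz * lz := by
    obtain ⟨i⟩ : Nonempty (Fin m) := inferInstance
    rw [← r2' i, hlek]
  have hleft : ((X : GamL (Unit ⊕ (Fin m ⊕ Fin m)) F).left :
      Matrix (Unit ⊕ (Fin m ⊕ Fin m)) (Unit ⊕ (Fin m ⊕ Fin m)) F) = lz • 1 := by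
    apply Matrix.ext_of_mulVec_single
    intro k
    rw [← act_single, Matrix.smul_mulVec, Matrix.one_mulVec]
    rcases k with k | k | k
    · exact hlz
    · rw [hle, hlek]
    · rw [hlf, hlfk]
  refine ⟨(X : GamL (Unit ⊕ (Fin m ⊕ Fin m)) F).right, ?_, ?_⟩
  · have hX : X = inlO ⇑(QOdd m F) (scal (QOdd m F) (Units.mk0 lz hlz0))
        * fS (comm_QOdd (X : GamL (Unit ⊕ (Fin m ⊕ Fin m)) F).right) := by
      apply Subtype.ext
      rw [Cfsg.Agent.Lib.Helper42OLang.coe_inlO_mul_fS]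
      apply SemidirectProduct.ext
      · apply Units.ext
        rw [hleft, coe_scal]
        rfl
      · rfl
    conv_lhs => rw [hX]
    rw [map_mul, sAut_inlO, cAut_eq_one_of_scalar _ _ (scal_mem _ _), one_mul]
    rfl
  · intro t
    obtain ⟨i⟩ : Nonempty (Fin m) := inferInstance
    have h1 := r2 i t
    rw [hlek, hcz, mul_assoc, mul_comm] at h1
    exact mul_left_cancel₀ (mul_ne_zero hlz0 hlz0) h1

theorem mem_zpowers_of_fix' [Finite F] (σ τ : F ≃+* F)
    (h : ∀ a, σ a = a → τ a = a) : τ ∈ Subgroup.zpowers σ := by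
  have hfin : Finite (F ≃+* F) := Finite.of_injective (fun β : F ≃+* F => (β : F → F))
    (fun a b h => RingEquiv.ext (congrFun h))
  let G := Subgroup.zpowers σ
  have hb := FixedPoints.toAlgHom_bijective G F
  let T : F →ₐ[FixedPoints.subfield G F] F :=
    { (τ : F →+* F) with
      commutes' := fun a => h a.1 (a.2 ⟨σ, Subgroup.mem_zpowers σ⟩) }
  obtain ⟨g, hg⟩ := hb.2 T
  have : τ = g.1 := by
    ext a
    have := congrArg (fun f : F →ₐ[FixedPoints.subfield G F] F => f a) hg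
    exact this.symm
  rw [this]
  exact g.2

theorem conj_injective [Fintype F] (hQ : (QuadraticMap.polarBilin Q).Nondegenerate)
    (hn : 5 ≤ Fintype.card ι) :
    Function.Injective (MulAut.conj : POmega F ⇑Q →* MulAut (POmega F ⇑Q)) := by
  rw [injective_iff_map_eq_one]
  intro g hg
  have h1 : g ∈ Subgroup.center (POmega F ⇑Q) := by
    rw [Subgroup.mem_center_iff]
    intro x
    have := congrArg (fun f : MulAut (POmega F ⇑Q) => f x) hg
    simp only [MulAut.conj_apply, MulAut.one_apply] at this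
    rw [mul_inv_eq_iff_eq_mul] at this
    exact this.symm
  rw [center_POmega Q hQ hn] at h1
  exact h1

theorem field_case_odd [Fintype F] (hm : 2 ≤ m) (h2 : (2 : F) ≠ 0)
    (hsurj : Function.Surjective (sAut ⇑(QOdd m F))) (σ : F ≃+* F)
    (p : ℕ) [Fact p.Prime] (hσ : σ ^ p = 1)
    (A : Subgroup (MulAut (POmega F ⇑(QOdd m F))))
    (hinn : ∀ k : POmega F ⇑(QOdd m F), MulAut.conj k ∈ A) :
    pPrimeCore p ↥(A ⊓ Subgroup.centralizer {fA (comm_QOdd (m := m) σ)}) ≠ ⊥ ↔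
      Nat.Coprime p (Nat.card ↥(MonoidHom.eqLocus (fA (comm_QOdd (m := m) σ)).toMonoidHom
        (MonoidHom.id (POmega F ⇑(QOdd m F))))) := by
  have hp : p.Prime := Fact.out
  have hQ := Cfsg.Agent.Lib.Helper49OddForm.QOdd_nondegenerate h2 m
  have hcard : Fintype.card (Unit ⊕ (Fin m ⊕ Fin m)) = 2 * m + 1 := by
    simp only [Fintype.card_sum, Fintype.card_fin, Fintype.card_unit]
    omega
  have hn : 5 ≤ Fintype.card (Unit ⊕ (Fin m ⊕ Fin m)) := by omega
  have hoddc : Odd (Fintype.card (Unit ⊕ (Fin m ⊕ Fin m))) := by rw [hcard]; exact ⟨m, rfl⟩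
  let F₀ := (σ : F →+* F).eqLocusField (RingHom.id F)
  let j : F₀ →+* F := F₀.subtype
  have hj : ∀ a, σ a = a ↔ a ∈ Set.range j := by
    intro a
    constructor
    · intro ha
      exact ⟨⟨a, ha⟩, rfl⟩
    · rintro ⟨b, rfl⟩
      exact b.2
  have hfin : Finite F₀ := Finite.of_injective j j.injective
  have : Fintype F₀ := Fintype.ofFinite F₀
  have h2' : (2 : F₀) ≠ 0 := by
    intro h
    apply h2
    have := congrArg j h
    rw [map_ofNat, map_zero] at this
    exact this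
  have hQ₀ := Cfsg.Agent.Lib.Helper49OddForm.QOdd_nondegenerate h2' m
  have hE : Ext (QOdd m F) (QOdd m F₀) j := by
    intro v
    rw [coe_QOdd, coe_QOdd]
    simp [Cfsg.quadFormOdd]
  have hfinK : Finite (POmega F ⇑(QOdd m F)) := inferInstance
  let i0 : Fin m := ⟨0, by omega⟩
  let i1 : Fin m := ⟨1, by omega⟩
  have h01 : i0 ≠ i1 := by simp [i0, i1, Fin.ext_iff]
  constructor
  · intro h
    by_contra hcop
    rw [hp.coprime_iff_not_dvd, not_not] at hcop
    obtain ⟨t₀, ht₀⟩ : ∃ t₀ : ↥(Omega F₀ ⇑(QOdd m F₀)), orderOf (lamO hE t₀) = p := by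
      by_cases hp2 : p = 2
      · subst hp2
        have H0 := hypPair_QOdd (F := F₀) m i0
        have H1 := hypPair_QOdd (F := F₀) m i1
        apply exists_t0_two hQ hn h2 h2' hE
          ((1 : F₀) • Pi.single (Sum.inr (Sum.inl i0)) 1 + (1 : F₀) • Pi.single (Sum.inr (Sum.inr i0)) 1)
          ((1 : F₀) • Pi.single (Sum.inr (Sum.inl i1)) 1 + (1 : F₀) • Pi.single (Sum.inr (Sum.inr i1)) 1)
        · rw [H0.Q_st]; simp
        · rw [H0.Q_st, H1.Q_st]
        · rw [H0.polar_st]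
          simp [h01]
      · exact exists_t0_odd hQ hQ₀ hn hoddc h2 h2' _ hE hj p hp2 hcop
    apply h
    apply Cfsg.Agent.Lib.Helper42BalA.core_eq_bot (lamO hE) (fA (comm_QOdd σ)) p
      (conj_injective hQ hn) (H2 _ hE hj) (H3 hQ₀ hn hE p t₀ ht₀)
      (H4 hQ hn hoddc h2 _ hE hj) ?_ A hinn
    intro β hβ
    obtain ⟨τ, rfl, hτ⟩ := fix_lam_odd hm h2 h2' hE hsurj β hβ
    have h1 : τ ∈ Subgroup.zpowers σ := by
      apply mem_zpowers_of_fix'
      intro a ha
      obtain ⟨b, rfl⟩ := (hj a).1 ha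
      exact hτ b
    obtain ⟨n, rfl⟩ := Subgroup.mem_zpowers_iff.1 h1
    rw [fA_pow, fA_eq_one_iff hQ hn, ← zpow_natCast, ← _root_.zpow_mul, mul_comm, _root_.zpow_mul,
      zpow_natCast, hσ, _root_.one_zpow]
  · intro hcop
    apply Cfsg.Agent.Lib.Helper42BalA.core_ne_bot_of_fix (conj_injective hQ hn) A hinn _ p hcop
    have HF := hyp_of_hypPair (hypPair_QOdd (F := F) m i0)
    have HF1 := hyp_of_hypPair (hypPair_QOdd (F := F) m i1)
    have HF₀ := hyp_of_hypPair (hypPair_QOdd (F := F₀) m i0)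
    refine ⟨lamO hE (EO (QOdd m F₀) (Pi.single (Sum.inr (Sum.inl i0)) 1)
      (Pi.single (Sum.inr (Sum.inl i1)) 1)), H2 _ hE hj _, ?_⟩
    rw [lamO_EO hQ hQ₀ hn hE HF₀.he (by rw [pe]; simp), jv_single, jv_single]
    apply Cfsg.Agent.Lib.Helper51AO6.Pb_ne_one hQ hn HF.he HF1.he (by rw [pe]; simp)
    · intro h
      have := congrFun h (Sum.inr (Sum.inl i1))
      simp at this
    · intro hmem
      obtain ⟨t, ht⟩ := Submodule.mem_span_singleton.1 hmem
      have := congrFun ht (Sum.inr (Sum.inl i0))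
      simp [h01] at this

theorem decomp (X : ↥(GamO ⇑Q)) (hσ : Comm ⇑Q (X : GamL ι F).right) :
    ∃ g : ↥(GO Q), X = inlO ⇑Q g * fS hσ := by
  have h1 : X * (fS hσ)⁻¹ ∈ (prO ⇑Q).ker := by
    rw [MonoidHom.mem_ker, map_mul, map_inv, prO_apply, prO_apply]
    show (X : GamL ι F).right * ((X : GamL ι F).right)⁻¹ = 1
    exact mul_inv_cancel _
  rw [ker_prO] at h1
  obtain ⟨g, hg⟩ := h1
  exact ⟨g, by rw [hg]; group⟩

end odd

end Cfsg.Agent.Lib.Helper42BalO2
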