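import Mathlib
import Cfsg.Agent.Lib.Helper42BalO2
import Cfsg.Agent.Lib.Helper18RecA
import Cfsg.Agent.Lib.Helper18BalA

set_option autoImplicit false
set_option linter.unusedSectionVars false

/-! The local balance engine of helper42, repackaged for orthogonal groups (helper18). -/

namespace Cfsg.Agent.Lib.Helper18BalB

open Cfsg Matrix Module
open scoped MatrixGroups
open Cfsg.Agent.Lib.Helper49Orth Cfsg.Agent.Lib.Helper49Center
  Cfsg.Agent.Lib.Helper51OrthAut Cfsg.Agent.Lib.Helper51OrthIdx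
  Cfsg.Agent.Lib.Helper18GamA Cfsg.Agent.Lib.Helper18GamB Cfsg.Agent.Lib.Helper18GamI
  Cfsg.Agent.Lib.Helper18RecA Cfsg.Agent.Lib.Helper42BalA Cfsg.Agent.Lib.Helper42BalO2

section abstract

/-- The two conclusions in the "balanced" case. -/
def Balanced {K : Type*} [Group K] (p : ℕ) (x : MulAut K) : Prop :=
  (∀ A : Subgroup (MulAut K), (∀ k : K, MulAut.conj k ∈ A) →
    pPrimeCore p ↥(A ⊓ Subgroup.centralizer {x}) = ⊥) ∧
  ¬ Nat.Coprime p (Nat.card ↥(MonoidHom.eqLocus x.toMonoidHom (MonoidHom.id K)))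

/-- The criterion for field automorphisms. -/
def FieldCrit {K : Type*} [Group K] (p : ℕ) (x : MulAut K) : Prop :=
  ∀ A : Subgroup (MulAut K), (∀ k : K, MulAut.conj k ∈ A) →
    (pPrimeCore p ↥(A ⊓ Subgroup.centralizer {x}) ≠ ⊥ ↔
      Nat.Coprime p (Nat.card ↥(MonoidHom.eqLocus x.toMonoidHom (MonoidHom.id K))))

theorem Balanced.fieldCrit {K : Type*} [Group K] {p : ℕ} {x : MulAut K} (h : Balanced p x) :
    FieldCrit p x := fun A hA =>
  ⟨fun h1 => absurd (h.1 A hA) h1, fun h1 => absurd h1 h.2⟩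

theorem card_fix_congr {K K' : Type*} [Group K] [Group K'] (ψ : K ≃* K') (x : MulAut K) :
    Nat.card ↥(MonoidHom.eqLocus (MulAut.congr ψ x).toMonoidHom (MonoidHom.id K'))
      = Nat.card ↥(MonoidHom.eqLocus x.toMonoidHom (MonoidHom.id K)) := by
  symm
  apply Nat.card_congr
  refine Equiv.subtypeEquiv ψ.toEquiv ?_
  intro k
  show x k = k ↔ ψ (x (ψ.symm (ψ k))) = ψ k
  rw [ψ.symm_apply_apply, ψ.injective.eq_iff]

theorem conj_mem_map {K K' : Type*} [Group K] [Group K'] (ψ : K ≃* K')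
    (A : Subgroup (MulAut K)) (hA : ∀ k : K, MulAut.conj k ∈ A) (k : K') :
    MulAut.conj k ∈ A.map (MulAut.congr ψ).toMonoidHom := by
  refine ⟨MulAut.conj (ψ.symm k), hA _, ?_⟩
  ext y
  change ψ (ψ.symm k * ψ.symm y * (ψ.symm k)⁻¹) = k * y * k⁻¹
  simp

theorem fieldCrit_congr {K K' : Type*} [Group K] [Group K'] [Finite K] (ψ : K ≃* K') {p : ℕ}
    {x : MulAut K} (h : FieldCrit p (MulAut.congr ψ x)) : FieldCrit p x := by
  intro A hA
  have hfin : Finite (MulAut K) := Finite.of_injective (fun β : MulAut K => (β : K → K))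
    (fun a b h => MulEquiv.ext (congrFun h))
  obtain ⟨e⟩ := centralizer_map_equiv (MulAut.congr ψ) A x
  rw [core_ne_bot_congr p e, h _ (conj_mem_map ψ A hA), card_fix_congr]

theorem not_coprime_of_fixed {K : Type*} [Group K] {p : ℕ} (hp : p.Prime) (x : MulAut K) (k : K)
    (hk : x k = k) (ho : orderOf k = p) :
    ¬ Nat.Coprime p (Nat.card ↥(MonoidHom.eqLocus x.toMonoidHom (MonoidHom.id K))) := by
  intro hc
  have hmem : k ∈ MonoidHom.eqLocus x.toMonoidHom (MonoidHom.id K) := hk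
  have h1 : orderOf (⟨k, hmem⟩ : ↥(MonoidHom.eqLocus x.toMonoidHom (MonoidHom.id K))) = p := by
    rw [← ho]
    exact (Subgroup.orderOf_mk _ _)
  have h2 := orderOf_dvd_natCard (⟨k, hmem⟩ : ↥(MonoidHom.eqLocus x.toMonoidHom (MonoidHom.id K)))
  rw [h1] at h2
  have h3 : p ∣ Nat.gcd p (Nat.card ↥(MonoidHom.eqLocus x.toMonoidHom (MonoidHom.id K))) :=
    Nat.dvd_gcd dvd_rfl h2
  rw [hc] at h3
  exact hp.one_lt.ne' (Nat.dvd_one.1 h3)

end abstract

variable {F : Type*} [Field F] {ι : Type} [Fintype ι] [DecidableEq ι]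
variable {Q : QuadraticForm F (ι → F)}

/-- `b = ± a` -/
def PM (a b : GL ι F) : Prop :=
  (b : Matrix ι ι F) = (a : Matrix ι ι F) ∨ (b : Matrix ι ι F) = -(a : Matrix ι ι F)

theorem mk_eq_mk_iff [Fintype F] (hQ : (QuadraticMap.polarBilin Q).Nondegenerate)
    (hn : 5 ≤ Fintype.card ι) (a b : ↥(Omega F ⇑Q)) :
    (QuotientGroup.mk a : POmega F ⇑Q) = QuotientGroup.mk b ↔
      PM ((a : ↥(isometryGroup F ⇑Q)) : GL ι F) ((b : ↥(isometryGroup F ⇑Q)) : GL ι F) := by
  have hc : ((((a⁻¹ * b : ↥(Omega F ⇑Q)) : ↥(isometryGroup F ⇑Q)) : GL ι F) : Matrix ι ι F)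
      = ((((a : ↥(isometryGroup F ⇑Q)) : GL ι F)⁻¹ : GL ι F) : Matrix ι ι F) *
        (((b : ↥(isometryGroup F ⇑Q)) : GL ι F) : Matrix ι ι F) := rfl
  have hmul : ∀ M : Matrix ι ι F, (((a : ↥(isometryGroup F ⇑Q)) : GL ι F) : Matrix ι ι F) *
      (((((a : ↥(isometryGroup F ⇑Q)) : GL ι F)⁻¹ : GL ι F) : Matrix ι ι F) * M) = M := by
    intro M
    rw [← Matrix.mul_assoc, ← Units.val_mul, mul_inv_cancel, Units.val_one, Matrix.one_mul]
  constructor
  · intro h
    have h1 : a⁻¹ * b ∈ Subgroup.center ↥(Omega F ⇑Q) := QuotientGroup.eq.1 h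
    rcases coe_eq_of_mem_center Q hQ hn h1 with h2 | h2
    · left
      rw [hc] at h2
      rw [← hmul (((b : ↥(isometryGroup F ⇑Q)) : GL ι F) : Matrix ι ι F), h2, Matrix.mul_one]
    · right
      rw [hc] at h2
      rw [← hmul (((b : ↥(isometryGroup F ⇑Q)) : GL ι F) : Matrix ι ι F), h2, Matrix.mul_neg,
        Matrix.mul_one]
  · intro h
    apply QuotientGroup.eq.2
    have h2 : ((((a⁻¹ * b : ↥(Omega F ⇑Q)) : ↥(isometryGroup F ⇑Q)) : GL ι F) : Matrix ι ι F) = 1 ∨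
        ((((a⁻¹ * b : ↥(Omega F ⇑Q)) : ↥(isometryGroup F ⇑Q)) : GL ι F) : Matrix ι ι F) = -1 := by
      rw [hc]
      rcases h with h | h
      · left
        rw [h, ← Units.val_mul, inv_mul_cancel, Units.val_one]
      · right
        rw [h, Matrix.mul_neg, ← Units.val_mul, inv_mul_cancel, Units.val_one]
    rw [Subgroup.mem_center_iff]
    intro g
    apply Subtype.ext
    apply iso_ext
    show (((g : ↥(isometryGroup F ⇑Q)) : GL ι F) : Matrix ι ι F) *
        ((((a⁻¹ * b : ↥(Omega F ⇑Q)) : ↥(isometryGroup F ⇑Q)) : GL ι F) : Matrix ι ι F)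
      = ((((a⁻¹ * b : ↥(Omega F ⇑Q)) : ↥(isometryGroup F ⇑Q)) : GL ι F) : Matrix ι ι F) *
        (((g : ↥(isometryGroup F ⇑Q)) : GL ι F) : Matrix ι ι F)
    rcases h2 with h2 | h2
    · rw [h2, Matrix.mul_one, Matrix.one_mul]
    · rw [h2, Matrix.mul_neg, Matrix.neg_mul, Matrix.mul_one, Matrix.one_mul]

/-- the composite `S₀ → Ω → PΩ` -/
def lamL {S₀ : Type*} [Group S₀] (L : S₀ →* ↥(Omega F ⇑Q)) : S₀ →* POmega F ⇑Q :=
  (QuotientGroup.mk' (Subgroup.center ↥(Omega F ⇑Q))).comp L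

theorem lamL_apply {S₀ : Type*} [Group S₀] (L : S₀ →* ↥(Omega F ⇑Q)) (s : S₀) :
    lamL L s = QuotientGroup.mk (L s) := rfl

theorem lamL_eq_one_iff [Fintype F] (hQ : (QuadraticMap.polarBilin Q).Nondegenerate)
    (hn : 5 ≤ Fintype.card ι) {S₀ : Type*} [Group S₀] (L : S₀ →* ↥(Omega F ⇑Q)) (s : S₀) :
    lamL L s = 1 ↔ PM 1 (((L s : ↥(Omega F ⇑Q)) : ↥(isometryGroup F ⇑Q)) : GL ι F) := by
  rw [lamL_apply, eq_comm]
  exact mk_eq_mk_iff hQ hn 1 (L s)

/-- **The engine.** -/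
theorem engine [Fintype F] (hQ : (QuadraticMap.polarBilin Q).Nondegenerate)
    (hn : 5 ≤ Fintype.card ι) (hsurj : Function.Surjective (sAut ⇑Q))
    {S₀ : Type*} [Group S₀] (L : S₀ →* ↥(Omega F ⇑Q)) (X₀ : ↥(GamO ⇑Q)) (p : ℕ) [Fact p.Prime]
    (h2 : ∀ s, cj (X₀ : GamL ι F) (((L s : ↥(Omega F ⇑Q)) : ↥(isometryGroup F ⇑Q)) : GL ι F)
      = (((L s : ↥(Omega F ⇑Q)) : ↥(isometryGroup F ⇑Q)) : GL ι F))
    (h3 : ∀ N : Subgroup S₀, N.Normal →
      (∀ n ∈ N, PM 1 (((L n : ↥(Omega F ⇑Q)) : ↥(isometryGroup F ⇑Q)) : GL ι F)) ∨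
      ∃ t ∈ N, ¬ PM 1 (((L t : ↥(Omega F ⇑Q)) : ↥(isometryGroup F ⇑Q)) : GL ι F) ∧
        PM 1 (((L (t ^ p) : ↥(Omega F ⇑Q)) : ↥(isometryGroup F ⇑Q)) : GL ι F))
    (h4 : ∀ y : ↥(Omega F ⇑Q), PM ((y : ↥(isometryGroup F ⇑Q)) : GL ι F)
        (cj (X₀ : GamL ι F) ((y : ↥(isometryGroup F ⇑Q)) : GL ι F)) →
      ∀ s, ∃ t, y * L s * y⁻¹ * (L s)⁻¹ = L t)
    (h5 : ∀ X : ↥(GamO ⇑Q),
      (∀ s, PM (((L s : ↥(Omega F ⇑Q)) : ↥(isometryGroup F ⇑Q)) : GL ι F)
        (cj (X : GamL ι F) (((L s : ↥(Omega F ⇑Q)) : ↥(isometryGroup F ⇑Q)) : GL ι F))) →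
      sAut ⇑Q X ^ p = 1)
    (A : Subgroup (MulAut (POmega F ⇑Q))) (hinn : ∀ k : POmega F ⇑Q, MulAut.conj k ∈ A) :
    pPrimeCore p ↥(A ⊓ Subgroup.centralizer {sAut ⇑Q X₀}) = ⊥ := by
  have hp : p.Prime := Fact.out
  have hfinK : Finite (POmega F ⇑Q) := inferInstance
  apply core_eq_bot (lamL L) (sAut ⇑Q X₀) p (conj_injective hQ hn)
  · intro s
    rw [lamL_apply]
    exact sAut_mk _ _ _ _ (h2 s).symm
  · intro N hN
    rcases h3 N hN with h | ⟨t, ht, h1, h2'⟩
    · left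
      intro n hn'
      exact (lamL_eq_one_iff hQ hn L n).2 (h n hn')
    · right
      refine ⟨t, ht, orderOf_eq_prime ?_ ?_⟩
      · rw [← map_pow]
        exact (lamL_eq_one_iff hQ hn L _).2 h2'
      · intro h
        exact h1 ((lamL_eq_one_iff hQ hn L t).1 h)
  · intro k hk s
    obtain ⟨y, rfl⟩ := QuotientGroup.mk_surjective k
    rw [sAut_mk'] at hk
    have h1 := (mk_eq_mk_iff hQ hn _ _).1 hk.symm
    rw [coe_sOm] at h1
    obtain ⟨t, ht⟩ := h4 y h1 s
    refine ⟨t, ?_⟩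
    rw [lamL_apply, lamL_apply, ← ht]
    rfl
  · intro β hβ
    obtain ⟨X, rfl⟩ := hsurj β
    apply h5
    intro s
    have h1 := hβ s
    rw [lamL_apply, sAut_mk'] at h1
    have h6 := (mk_eq_mk_iff hQ hn _ _).1 h1.symm
    rwa [coe_sOm] at h6
  · exact hinn

/-- The second half of `Balanced`. -/
theorem engine_fix [Fintype F] (hQ : (QuadraticMap.polarBilin Q).Nondegenerate)
    (hn : 5 ≤ Fintype.card ι)
    {S₀ : Type*} [Group S₀] (L : S₀ →* ↥(Omega F ⇑Q)) (X₀ : ↥(GamO ⇑Q)) (p : ℕ) [Fact p.Prime]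
    (h2 : ∀ s, cj (X₀ : GamL ι F) (((L s : ↥(Omega F ⇑Q)) : ↥(isometryGroup F ⇑Q)) : GL ι F)
      = (((L s : ↥(Omega F ⇑Q)) : ↥(isometryGroup F ⇑Q)) : GL ι F))
    (h3 : ∀ N : Subgroup S₀, N.Normal →
      (∀ n ∈ N, PM 1 (((L n : ↥(Omega F ⇑Q)) : ↥(isometryGroup F ⇑Q)) : GL ι F)) ∨
      ∃ t ∈ N, ¬ PM 1 (((L t : ↥(Omega F ⇑Q)) : ↥(isometryGroup F ⇑Q)) : GL ι F) ∧
        PM 1 (((L (t ^ p) : ↥(Omega F ⇑Q)) : ↥(isometryGroup F ⇑Q)) : GL ι F))
    (hne : ∃ s, ¬ PM 1 (((L s : ↥(Omega F ⇑Q)) : ↥(isometryGroup F ⇑Q)) : GL ι F)) :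
    ¬ Nat.Coprime p (Nat.card ↥(MonoidHom.eqLocus (sAut ⇑Q X₀).toMonoidHom
      (MonoidHom.id (POmega F ⇑Q)))) := by
  have hp : p.Prime := Fact.out
  rcases h3 ⊤ inferInstance with h | ⟨t, -, h1, h2'⟩
  · obtain ⟨s, hs⟩ := hne
    exact absurd (h s trivial) hs
  · apply not_coprime_of_fixed hp _ (lamL L t)
    · rw [lamL_apply]
      exact sAut_mk _ _ _ _ (h2 t).symm
    · refine orderOf_eq_prime ?_ ?_
      · rw [← map_pow]
        exact (lamL_eq_one_iff hQ hn L _).2 h2'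
      · intro h
        exact h1 ((lamL_eq_one_iff hQ hn L t).1 h)

/-! ### Exact commutation on squares -/

theorem PM.sq {a b : GL ι F} (h : PM a b) : b * b = a * a := by
  apply Units.ext
  rw [Units.val_mul, Units.val_mul]
  rcases h with h | h
  · rw [h]
  · rw [h, Matrix.neg_mul, Matrix.mul_neg, neg_neg]

theorem cj_sq (X : GamL ι F) (u : GL ι F) (h : PM u (cj X u)) : cj X (u * u) = u * u := by
  rw [map_mul, h.sq]

theorem PM.eq_of_two {a b : GL ι F} (h2 : (2 : F) = 0) (h : PM a b) : b = a := by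
  apply Units.ext
  rcases h with h | h
  · exact h
  · rw [h]
    ext i k
    have : (2 : F) * (a : Matrix ι ι F) i k = 0 := by rw [h2, zero_mul]
    rw [Matrix.neg_apply]
    linear_combination -this

/-- commutation of the semilinear map with a matrix fixed by conjugation -/
theorem act_comm (X : GamL ι F) (g : GL ι F) (h : cj X g = g) (v : ι → F) :
    act X ((g : Matrix ι ι F) *ᵥ v) = (g : Matrix ι ι F) *ᵥ act X v := by
  rw [← cj_act, h]

/-- the semilinear map as an additive map -/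
def actHom (X : GamL ι F) : (ι → F) →+ (ι → F) where
  toFun := act X
  map_zero' := by
    have := act_smul X 0 (0 : ι → F)
    simpa using this
  map_add' := act_add X

theorem actHom_apply (X : GamL ι F) (v : ι → F) : actHom X v = act X v := rfl

/-! ### Surjectivity of `sAut` is invariant under similarity -/

section transport

variable {ι' : Type} [Fintype ι'] [DecidableEq ι']
variable {q : (ι → F) → F} {q' : (ι' → F) → F} {B : Matrix ι ι' F} {B' : Matrix ι' ι F} {κ : F}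

theorem map_mul_eq_one {ι₁ ι₂ : Type} [Fintype ι₁] [Fintype ι₂] [DecidableEq ι₁]
    {M : Matrix ι₁ ι₂ F} {N : Matrix ι₂ ι₁ F} (h : M * N = 1) (τ : F ≃+* F) :
    M.map τ * N.map τ = 1 := by
  have h1 := Matrix.map_mul (f := (τ : F →+* F)) (L := M) (M := N)
  simp only [RingHom.coe_coe] at h1
  rw [← h1, h]
  exact Matrix.map_one (τ : F →+* F) (map_zero _) (map_one _)

/-- pull back a semilinear pair along a rectangular invertible matrix -/
def pullL (h1 : B * B' = 1) (h2 : B' * B = 1) (T : GamL ι F) : GamL ι' F :=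
  ⟨⟨B' * (T.left : Matrix ι ι F) * B.map T.right,
    B'.map T.right * ((T.left⁻¹ : GL ι F) : Matrix ι ι F) * B, by
      calc B' * (T.left : Matrix ι ι F) * B.map T.right *
          (B'.map T.right * ((T.left⁻¹ : GL ι F) : Matrix ι ι F) * B)
          = B' * ((T.left : Matrix ι ι F) * (B.map T.right * B'.map T.right) *
            ((T.left⁻¹ : GL ι F) : Matrix ι ι F)) * B := by simp only [Matrix.mul_assoc]
        _ = 1 := by rw [map_mul_eq_one h1, Matrix.mul_one, ← Units.val_mul, mul_inv_cancel,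
            Units.val_one, Matrix.mul_one, h2], by
      calc B'.map T.right * ((T.left⁻¹ : GL ι F) : Matrix ι ι F) * B *
          (B' * (T.left : Matrix ι ι F) * B.map T.right)
          = B'.map T.right * (((T.left⁻¹ : GL ι F) : Matrix ι ι F) * (B * B') *
            (T.left : Matrix ι ι F)) * B.map T.right := by simp only [Matrix.mul_assoc]
        _ = 1 := by rw [h1, Matrix.mul_one, ← Units.val_mul, inv_mul_cancel,
            Units.val_one, Matrix.mul_one, map_mul_eq_one h2]⟩, T.right⟩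

theorem pullL_right (h1 : B * B' = 1) (h2 : B' * B = 1) (T : GamL ι F) :
    (pullL h1 h2 T).right = T.right := rfl

theorem coe_pullL_left (h1 : B * B' = 1) (h2 : B' * B = 1) (T : GamL ι F) :
    ((pullL h1 h2 T).left : Matrix ι' ι' F) = B' * (T.left : Matrix ι ι F) * B.map T.right := rfl

theorem map_mulVec_rect {ι₁ ι₂ : Type} [Fintype ι₂] (τ : F ≃+* F) (M : Matrix ι₁ ι₂ F)
    (v : ι₂ → F) : (fun i => τ ((M *ᵥ v) i)) = (M.map τ) *ᵥ (fun i => τ (v i)) := by
  funext i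
  exact RingHom.map_mulVec (τ : F →+* F) M v i

theorem act_pullL (h1 : B * B' = 1) (h2 : B' * B = 1) (T : GamL ι F) (v : ι' → F) :
    act (pullL h1 h2 T) v = B' *ᵥ act T (B *ᵥ v) := by
  unfold act
  rw [coe_pullL_left, pullL_right, map_mulVec_rect, Matrix.mulVec_mulVec, Matrix.mulVec_mulVec]

theorem pullL_mem (h : SimR q q' B B' κ) {T : GamL ι F} (hT : T ∈ GamO q) :
    pullL h.mul h.mul' T ∈ GamO q' := by
  obtain ⟨c, hc⟩ := (mem_GamO' q).1 hT
  rw [mem_GamO']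
  refine ⟨Units.mk0 (κ⁻¹ * c * T.right κ) (mul_ne_zero (mul_ne_zero (inv_ne_zero h.ne) c.ne_zero)
    ((map_ne_zero _).2 h.ne)), fun v => ?_⟩
  rw [act_pullL, h.inv.sim, hc, h.sim, map_mul, pullL_right, Units.val_mk0]
  ring

theorem congr_sAutR (h : SimR q q' B B' κ) (T : ↥(GamO q)) :
    MulAut.congr (psiR h) (sAut q' ⟨pullL h.mul h.mul' T, pullL_mem h T.2⟩) = sAut q T := by
  apply congr_eq_of_comm
  intro z
  induction z using QuotientGroup.induction_on with
  | H w =>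
    rw [sAut_mk', psiR_mk, psiR_mk]
    symm
    apply sAut_mk
    rw [coe_commEquiv, coe_commEquiv, coe_isoOR, coe_isoOR, coe_sOm, cj_apply, cj_apply,
      eq_mul_inv_iff_mul_eq]
    apply Units.ext
    set W := (((w : ↥(isometryGroup F q')) : GL ι' F) : Matrix ι' ι' F) with hW
    set g := ((T : GamL ι F).left : Matrix ι ι F) with hg
    set τ := (T : GamL ι F).right with hτ
    have e0 : ((cjR h.mul h.mul' ((pullL h.mul h.mul' (T : GamL ι F)).left *
        mapAut (pullL h.mul h.mul' (T : GamL ι F)).right ((w : ↥(isometryGroup F q')) : GL ι' F) *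
        (pullL h.mul h.mul' (T : GamL ι F)).left⁻¹) : GL ι F) : Matrix ι ι F)
        = B * ((B' * g * B.map τ) * W.map τ *
          (B'.map τ * (((T : GamL ι F).left⁻¹ : GL ι F) : Matrix ι ι F) * B)) * B' := rfl
    have e1 : (B * W * B').map τ = B.map τ * W.map τ * B'.map τ := by
      have h1 := Matrix.map_mul (f := (τ : F →+* F)) (L := B * W) (M := B')
      have h2 := Matrix.map_mul (f := (τ : F →+* F)) (L := B) (M := W)
      simp only [RingHom.coe_coe] at h1 h2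
      rw [h1, h2]
    rw [Units.val_mul, Units.val_mul, e0, coe_mapAut, coe_cjR, e1]
    calc B * ((B' * g * B.map τ) * W.map τ *
          (B'.map τ * (((T : GamL ι F).left⁻¹ : GL ι F) : Matrix ι ι F) * B)) * B' * g
        = (B * B') * g * B.map τ * W.map τ * B'.map τ *
          ((((T : GamL ι F).left⁻¹ : GL ι F) : Matrix ι ι F) * (B * B') * g) := by
          simp only [Matrix.mul_assoc]
      _ = g * (B.map τ * W.map τ * B'.map τ) := by
          rw [h.mul, Matrix.one_mul, Matrix.mul_one, hg, ← Units.val_mul, inv_mul_cancel,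
            Units.val_one, Matrix.mul_one]
          simp only [Matrix.mul_assoc]

theorem sAut_surjective_of_simR (h : SimR q q' B B' κ) (hs : Function.Surjective (sAut q)) :
    Function.Surjective (sAut q') := by
  intro β
  obtain ⟨T, hT⟩ := hs (MulAut.congr (psiR h) β)
  refine ⟨⟨pullL h.mul h.mul' T, pullL_mem h T.2⟩, ?_⟩
  apply (MulAut.congr (psiR h)).injective
  rw [congr_sAutR, hT]

end transport

end Cfsg.Agent.Lib.Helper18BalB
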