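import Mathlib
import Cfsg.Agent.Lib.Helper18BalB

set_option autoImplicit false
set_option linter.unusedSectionVars false

/-! Local balance: the field automorphism case for general orthogonal groups (helper18). -/

namespace Cfsg.Agent.Lib.Helper18BalC

open Cfsg Matrix Module
open scoped MatrixGroups
open Cfsg.Agent.Lib.Helper49Orth Cfsg.Agent.Lib.Helper49Center Cfsg.Agent.Lib.Helper49Eich
  Cfsg.Agent.Lib.Helper49EichGen
  Cfsg.Agent.Lib.Helper51OrthAut Cfsg.Agent.Lib.Helper51OrthIdx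
  Cfsg.Agent.Lib.Helper18GamA Cfsg.Agent.Lib.Helper18GamB Cfsg.Agent.Lib.Helper18GamE
  Cfsg.Agent.Lib.Helper18GamF Cfsg.Agent.Lib.Helper18GamG Cfsg.Agent.Lib.Helper18GamI
  Cfsg.Agent.Lib.Helper42BalA Cfsg.Agent.Lib.Helper42BalO Cfsg.Agent.Lib.Helper42BalO2
  Cfsg.Agent.Lib.Helper18BalA Cfsg.Agent.Lib.Helper18BalB

variable {F : Type*} [Field F] {F₀ : Type*} [Field F₀]
variable {ι : Type} [Fintype ι] [DecidableEq ι]
variable {Q : QuadraticForm F (ι → F)} {Q₀ : QuadraticForm F₀ (ι → F₀)} {j : F₀ →+* F}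
variable {σ : F ≃+* F}

theorem sAut_eq_one_of_scalar [Fintype F] (Y : ↥(GamO ⇑Q)) (c : Fˣ)
    (hl : ((Y : GamL ι F).left : Matrix ι ι F) = (c : F) • 1) (hr : (Y : GamL ι F).right = 1) :
    sAut ⇑Q Y = 1 := by
  have : Y = inlO ⇑Q (scal Q c) := by
    apply Subtype.ext
    apply SemidirectProduct.ext
    · apply Units.ext
      rw [hl]
      exact (coe_scal Q c).symm
    · rw [hr]
      rfl
  rw [this, sAut_inlO, cAut_eq_one_of_scalar _ _ (scal_mem _ _)]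

theorem smul_one_map (τ : F ≃+* F) (c : F) :
    ((c • (1 : Matrix ι ι F)).map τ) = τ c • (1 : Matrix ι ι F) := by
  ext a b
  by_cases h : a = b
  · subst h; simp
  · simp [h]

theorem pow_scalar (y : GamL ι F) (c : Fˣ) (hl : (y.left : Matrix ι ι F) = (c : F) • 1) (k : ℕ) :
    ∃ d : Fˣ, ((y ^ k).left : Matrix ι ι F) = (d : F) • 1 := by
  induction k with
  | zero => exact ⟨1, by simp⟩
  | succ k ih =>
    obtain ⟨d, hd⟩ := ih
    refine ⟨d * Units.map ((y ^ k).right : F →* F) c, ?_⟩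
    rw [pow_succ, SemidirectProduct.mul_left, Units.val_mul, coe_mapAut, hd, hl, smul_one_map,
      Matrix.smul_mul, Matrix.one_mul, smul_smul]
    rfl

theorem sAut_pow_eq_one [Fintype F] (X : ↥(GamO ⇑Q)) (c : Fˣ)
    (hl : ((X : GamL ι F).left : Matrix ι ι F) = (c : F) • 1) (p : ℕ)
    (hr : (X : GamL ι F).right ^ p = 1) : sAut ⇑Q X ^ p = 1 := by
  obtain ⟨d, hd⟩ := pow_scalar (X : GamL ι F) c hl p
  rw [← map_pow]
  apply sAut_eq_one_of_scalar _ d
  · rw [Subgroup.coe_pow]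
    exact hd
  · rw [Subgroup.coe_pow]
    have h4 : ((X : GamL ι F) ^ p).right = (X : GamL ι F).right ^ p :=
      map_pow SemidirectProduct.rightHom _ p
    rw [h4, hr]

/-- exact commutation with the Eichler transformations of the small form -/
theorem cj_mapO_E [Fintype F₀] (hQ₀ : (QuadraticMap.polarBilin Q₀).Nondegenerate)
    (hn : 5 ≤ Fintype.card ι) (hE : Ext Q Q₀ j) (X : GamL ι F)
    (hX : ∀ s : ↥(Omega F₀ ⇑Q₀), PM ((mapO hE s : ↥(isometryGroup F ⇑Q)) : GL ι F)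
      (cj X ((mapO hE s : ↥(isometryGroup F ⇑Q)) : GL ι F)))
    {e w : ι → F₀} (he : Q₀ e = 0) (hw : QuadraticMap.polar ⇑Q₀ e w = 0) :
    cj X ((mapO hE (E Q₀ e w) : ↥(isometryGroup F ⇑Q)) : GL ι F)
      = ((mapO hE (E Q₀ e w) : ↥(isometryGroup F ⇑Q)) : GL ι F) := by
  by_cases h2 : (2 : F) = 0
  · exact (hX ⟨_, E_mem_Omega Q₀ hQ₀ hn he hw⟩).eq_of_two h2
  · have h2' : (2 : F₀) ≠ 0 := by
      intro h
      apply h2
      have := congrArg j h
      rwa [map_ofNat, map_zero] at this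
    have hw' : QuadraticMap.polar ⇑Q₀ e ((2 : F₀)⁻¹ • w) = 0 := by
      rw [QuadraticMap.polar_smul_right, hw, smul_zero]
    have h1 : E Q₀ e w = E Q₀ e ((2 : F₀)⁻¹ • w) * E Q₀ e ((2 : F₀)⁻¹ • w) := by
      rw [E_mul Q₀ he hw' hw', ← add_smul]
      congr 1
      have : (2 : F₀)⁻¹ + (2 : F₀)⁻¹ = 1 := by field_simp; norm_num
      rw [this, one_smul]
    rw [h1, map_mul]
    exact cj_sq X _ (hX ⟨_, E_mem_Omega Q₀ hQ₀ hn he hw'⟩)

/-- a semilinear map centralising `Ω(Q₀)` is a scalar times a field automorphism fixing `F₀` -/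
theorem fix_lam [Fintype F₀] (hQ₀ : (QuadraticMap.polarBilin Q₀).Nondegenerate)
    (hn : 5 ≤ Fintype.card ι) (hE : Ext Q Q₀ j) (X : GamL ι F)
    (hX : ∀ s : ↥(Omega F₀ ⇑Q₀), PM ((mapO hE s : ↥(isometryGroup F ⇑Q)) : GL ι F)
      (cj X ((mapO hE s : ↥(isometryGroup F ⇑Q)) : GL ι F))) :
    (∃ c : Fˣ, (X.left : Matrix ι ι F) = (c : F) • 1) ∧ ∀ a, X.right (j a) = j a := by
  let _ : Algebra F₀ F := j.toAlgebra
  have hsm : ∀ (a : F₀) (x : F), a • x = j a * x := fun a x => rfl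
  -- the auxiliary additive maps
  let Tl : F → (F →ₗ[F₀] F₀) → ((ι → F₀) →+ (ι → F₀)) := fun α ℓ =>
    { toFun := fun v i => ℓ (act X (α • jv j v) i)
      map_zero' := by
        funext i
        have h0 : jv j (0 : ι → F₀) = 0 := by funext k; simp [jv]
        have := (actHom X).map_zero
        rw [actHom_apply] at this
        simp [h0, this]
      map_add' := by
        intro u v
        funext i
        rw [jv_add, smul_add, act_add]
        simp }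
  have hTl : ∀ α ℓ v i, Tl α ℓ v i = ℓ (act X (α • jv j v) i) := fun _ _ _ _ => rfl
  have hcomm : ∀ α ℓ, CommE Q₀ (Tl α ℓ) := by
    intro α ℓ e w he hw x
    funext i
    rw [hTl]
    have h1 : jv j ((((E Q₀ e w : ↥(isometryGroup F₀ ⇑Q₀)) : GL ι F₀) : Matrix ι ι F₀) *ᵥ x)
        = (((mapO hE (E Q₀ e w) : ↥(isometryGroup F ⇑Q)) : GL ι F) : Matrix ι ι F) *ᵥ jv j x := by
      rw [coe_mapO]
      exact (map_mulVec_j _ _).symm
    rw [h1, ← Matrix.mulVec_smul, act_comm X _ (cj_mapO_E hQ₀ hn hE X hX he hw), coe_mapO]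
    simp only [Matrix.mulVec, dotProduct, Matrix.map_apply, map_sum, hTl]
    apply Finset.sum_congr rfl
    intro k _
    rw [← hsm, map_smul, smul_eq_mul]
  choose cc hcc using fun α ℓ => scalar_of_commE' hQ₀ (by omega) (hcomm α ℓ)
  have hsep : ∀ x y : F, (∀ ℓ : F →ₗ[F₀] F₀, ℓ x = ℓ y) → x = y := by
    intro x y h
    rw [← sub_eq_zero, ← Module.forall_dual_apply_eq_zero_iff F₀]
    intro ℓ
    rw [map_sub, h ℓ, sub_self]
  have hval : ∀ (α : F) (ℓ : F →ₗ[F₀] F₀) (a : F₀) (k i : ι),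
      ℓ (act X (α • (j a • Pi.single k 1)) i) = cc α ℓ * (a * (Pi.single k 1 : ι → F₀) i) := by
    intro α ℓ a k i
    have := congrFun (hcc α ℓ (a • Pi.single k 1)) i
    rw [hTl, jv_smul, jv_single] at this
    rw [this]
    simp
  obtain ⟨k₀⟩ : Nonempty ι := by
    rw [← Fintype.card_pos_iff]; omega
  set t : F := act X (Pi.single k₀ 1) k₀ with ht
  have hact : ∀ (a : F₀) (k : ι), act X (j a • Pi.single k 1) = (j a * t) • Pi.single k 1 := by
    intro a k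
    funext i
    apply hsep
    intro ℓ
    have h1 := hval 1 ℓ a k i
    have h2 := hval 1 ℓ 1 k₀ k₀
    rw [one_smul] at h1
    rw [one_smul, map_one, one_smul, ← ht] at h2
    simp only [Pi.single_eq_same, mul_one] at h2
    rw [h1, ← h2]
    by_cases hik : i = k
    · subst hik
      simp only [Pi.single_eq_same, mul_one, Pi.smul_apply, smul_eq_mul]
      rw [← hsm, map_smul, smul_eq_mul, mul_comm]
    · simp [hik]
  have hleft : (X.left : Matrix ι ι F) = t • 1 := by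
    apply Matrix.ext_of_mulVec_single
    intro k
    rw [← act_single, Matrix.smul_mulVec, Matrix.one_mulVec]
    have := hact 1 k
    rwa [map_one, one_smul, one_mul] at this
  have ht0 : t ≠ 0 := by
    intro h
    have h1 : (X.left : Matrix ι ι F) = 0 := by rw [hleft, h, zero_smul]
    have h2 : (1 : Matrix ι ι F) = 0 := by
      rw [← Units.val_one, ← mul_inv_cancel X.left, Units.val_mul, h1, Matrix.zero_mul]
    have := congrFun (congrFun h2 k₀) k₀
    simp at this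
  refine ⟨⟨Units.mk0 t ht0, hleft⟩, fun a => ?_⟩
  have h1 := hact a k₀
  have h2 := hact 1 k₀
  rw [map_one, one_smul, one_mul] at h2
  rw [act_smul, h2, smul_smul] at h1
  have h3 := congrFun h1 k₀
  simp only [Pi.smul_apply, Pi.single_eq_same, smul_eq_mul, mul_one] at h3
  exact mul_right_cancel₀ ht0 h3

/-- if `σ` has odd order the fixed points of the field automorphism lift to fixed matrices -/
theorem fix_pow [Fintype F] (hQ : (QuadraticMap.polarBilin Q).Nondegenerate)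
    (hn : 5 ≤ Fintype.card ι) (hσ : Comm ⇑Q σ) {p : ℕ} (hp : Odd p) (hσp : σ ^ p = 1)
    (u : ↥(Omega F ⇑Q)) (hu : fA hσ (QuotientGroup.mk u) = QuotientGroup.mk u) :
    mapAut σ ((u : ↥(isometryGroup F ⇑Q)) : GL ι F) = ((u : ↥(isometryGroup F ⇑Q)) : GL ι F) := by
  have h1 : fA hσ (QuotientGroup.mk u) = QuotientGroup.mk (sOm ⇑Q (fS hσ) u) := sAut_mk' _ _ _
  rw [h1] at hu
  have h3 := (mk_eq_mk_iff hQ hn _ _).1 hu.symm
  rw [coe_sOm, cj_fS] at h3
  rcases h3 with h | h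
  · exact Units.ext h
  · set U := (((u : ↥(isometryGroup F ⇑Q)) : GL ι F) : Matrix ι ι F) with hU
    rw [coe_mapAut] at h
    have key : ∀ k : ℕ, U.map (σ ^ k : F ≃+* F) = (-1 : F) ^ k • U := by
      intro k
      induction k with
      | zero =>
        ext a b
        simp
      | succ k ih =>
        have e : U.map (σ ^ (k + 1) : F ≃+* F) = (U.map (σ ^ k : F ≃+* F)).map σ := by
          ext a b
          rw [pow_succ']
          rfl
        rw [e, ih]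
        ext a b
        have := congrFun (congrFun h a) b
        simp only [Matrix.map_apply, Matrix.smul_apply, Matrix.neg_apply, smul_eq_mul, map_mul,
          map_pow, map_neg, map_one] at this ⊢
        rw [this, pow_succ]
        ring
    have h5 := key p
    rw [hσp, hp.neg_one_pow] at h5
    apply Units.ext
    rw [coe_mapAut, h]
    rw [neg_smul, one_smul] at h5
    rw [← h5]
    ext a b
    rfl

theorem H4' [Fintype F] (hQ : (QuadraticMap.polarBilin Q).Nondegenerate)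
    (hn : 5 ≤ Fintype.card ι) (hσ : Comm ⇑Q σ) {p : ℕ} (hp : Odd p) (hσp : σ ^ p = 1)
    (hE : Ext Q Q₀ j) (hj : ∀ a, σ a = a ↔ a ∈ Set.range j)
    (k : POmega F ⇑Q) (hk : fA hσ k = k) (s : ↥(Omega F₀ ⇑Q₀)) :
    ∃ t, k * lamO hE s * k⁻¹ * (lamO hE s)⁻¹ = lamO hE t := by
  obtain ⟨u, rfl⟩ := QuotientGroup.mk_surjective k
  obtain ⟨u₀, hu₀⟩ := descentO hE hj _ (fix_pow hQ hn hσ hp hσp u hk)
  refine ⟨⟨u₀ * s * u₀⁻¹ * (s : ↥(isometryGroup F₀ ⇑Q₀))⁻¹, comm_mem' _ _⟩, ?_⟩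
  rw [lamO_apply, lamO_apply]
  have h1 : mapOm hE ⟨u₀ * s * u₀⁻¹ * (s : ↥(isometryGroup F₀ ⇑Q₀))⁻¹, comm_mem' _ _⟩
      = u * mapOm hE s * u⁻¹ * (mapOm hE s)⁻¹ := by
    apply Subtype.ext
    show mapO hE (u₀ * s * u₀⁻¹ * (s : ↥(isometryGroup F₀ ⇑Q₀))⁻¹) = _
    rw [map_mul, map_mul, map_mul, map_inv, map_inv, hu₀]
    rfl
  rw [h1]
  rfl

theorem exists_t0 [Fintype F] (hQ : (QuadraticMap.polarBilin Q).Nondegenerate)
    (hn : 5 ≤ Fintype.card ι) (hσ : Comm ⇑Q σ) (hE : Ext Q Q₀ j)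
    (hj : ∀ a, σ a = a ↔ a ∈ Set.range j)
    (p : ℕ) [Fact p.Prime] (hp2 : p ≠ 2) (hσp : σ ^ p = 1)
    (hsq : ∀ y : ↥(isometryGroup F₀ ⇑Q₀), y * y ∈ Omega F₀ ⇑Q₀)
    (hdvd : p ∣ Nat.card ↥(MonoidHom.eqLocus (fA hσ).toMonoidHom (MonoidHom.id (POmega F ⇑Q)))) :
    ∃ t₀ : ↥(Omega F₀ ⇑Q₀), orderOf (lamO hE t₀) = p := by
  have hp : p.Prime := Fact.out
  obtain ⟨k, hk⟩ := exists_prime_orderOf_dvd_card' p hdvd
  rw [← Subgroup.orderOf_coe] at hk
  have hfix : fA hσ (k : POmega F ⇑Q) = k := k.2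
  obtain ⟨u, hu⟩ := QuotientGroup.mk_surjective (k : POmega F ⇑Q)
  rw [← hu] at hfix hk
  obtain ⟨u₀, hu₀⟩ := descentO hE hj _ (fix_pow hQ hn hσ (hp.odd_of_ne_two hp2) hσp u hfix)
  refine ⟨⟨u₀ * u₀, hsq u₀⟩, ?_⟩
  have h1 : mapOm hE ⟨u₀ * u₀, hsq u₀⟩ = u * u := by
    apply Subtype.ext
    show mapO hE (u₀ * u₀) = _
    rw [map_mul, hu₀]
    rfl
  rw [lamO_apply, h1]
  have h3 : (QuotientGroup.mk (u * u) : POmega F ⇑Q) = (QuotientGroup.mk u) ^ 2 := by
    rw [pow_two]; rfl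
  rw [h3, Nat.Coprime.orderOf_pow, hk]
  rw [hk]
  exact (Nat.coprime_primes hp Nat.prime_two).2 hp2

/-- a nontrivial fixed point -/
theorem exists_fixed_ne_one [Fintype F] [Fintype F₀]
    (hQ : (QuadraticMap.polarBilin Q).Nondegenerate)
    (hQ₀ : (QuadraticMap.polarBilin Q₀).Nondegenerate) (hn : 5 ≤ Fintype.card ι)
    (hE : Ext Q Q₀ j) : ∃ s : ↥(Omega F₀ ⇑Q₀), lamO hE s ≠ 1 := by
  obtain ⟨e, f, w₀, w₁, H⟩ := exists_frame hQ₀ (by omega : 3 ≤ Fintype.card ι)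
  refine ⟨⟨E Q₀ e w₀, E_mem_Omega Q₀ hQ₀ hn H.he H.e0⟩, fun h => ?_⟩
  rw [lamO_apply, eq_comm] at h
  have h1 := (mk_eq_mk_iff hQ hn 1 _).1 h
  rw [coe_mapOm] at h1
  have hfe : QuadraticMap.polar ⇑Q₀ f e = 1 := by rw [QuadraticMap.polar_comm]; exact H.hef
  have h2 : (((mapO hE (E Q₀ e w₀) : ↥(isometryGroup F ⇑Q)) : GL ι F) : Matrix ι ι F) *ᵥ jv j f
      = jv j (f + (0 - Q₀ w₀ * 1) • e - (1 : F₀) • w₀) := by
    rw [coe_mapO]
    have := map_mulVec_j (j := j) (((E Q₀ e w₀ : ↥(isometryGroup F₀ ⇑Q₀)) : GL ι F₀) : Matrix ι ι F₀) f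
    rw [E_apply Q₀ H.he H.e0, H.f0, hfe] at this
    exact this
  have h3 : jv j (f + (0 - Q₀ w₀ * 1) • e - (1 : F₀) • w₀) = jv j f ∨
      jv j (f + (0 - Q₀ w₀ * 1) • e - (1 : F₀) • w₀) = jv j (-f) := by
    rcases h1 with h1 | h1
    · left
      rw [← h2]
      change (((mapO hE (E Q₀ e w₀) : ↥(isometryGroup F ⇑Q)) : GL ι F) : Matrix ι ι F) = _ at h1
      rw [h1]
      simp
    · right
      rw [← h2]
      change (((mapO hE (E Q₀ e w₀) : ↥(isometryGroup F ⇑Q)) : GL ι F) : Matrix ι ι F) = _ at h1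
      rw [h1]
      funext i
      simp [jv, Matrix.neg_mulVec]
  have hinj : Function.Injective (jv j : (ι → F₀) → (ι → F)) := by
    intro a b hab
    funext i
    exact j.injective (congrFun hab i)
  have h4 : QuadraticMap.polar ⇑Q₀ (f + (0 - Q₀ w₀ * 1) • e - (1 : F₀) • w₀) w₁
      = - QuadraticMap.polar ⇑Q₀ w₀ w₁ := by
    rw [QuadraticMap.polar_sub_left, QuadraticMap.polar_add_left, QuadraticMap.polar_smul_left,
      QuadraticMap.polar_smul_left, H.f1, H.e1]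
    simp
  rcases h3 with h3 | h3
  · rw [hinj h3, H.f1] at h4
    exact H.h01 (neg_eq_zero.1 h4.symm)
  · rw [hinj h3, QuadraticMap.polar_neg_left, H.f1, neg_zero] at h4
    exact H.h01 (neg_eq_zero.1 h4.symm)

/-- **The field case.** -/
theorem field_case [Fintype F] [Fintype F₀] (hQ : (QuadraticMap.polarBilin Q).Nondegenerate)
    (hQ₀ : (QuadraticMap.polarBilin Q₀).Nondegenerate) (hn : 5 ≤ Fintype.card ι)
    (hsurj : Function.Surjective (sAut ⇑Q)) (hσ : Comm ⇑Q σ) (hE : Ext Q Q₀ j)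
    (hj : ∀ a, σ a = a ↔ a ∈ Set.range j)
    (p : ℕ) [Fact p.Prime] (hp2 : p ≠ 2) (hσp : σ ^ p = 1)
    (hsq : ∀ y : ↥(isometryGroup F₀ ⇑Q₀), y * y ∈ Omega F₀ ⇑Q₀) : FieldCrit p (fA hσ) := by
  have hp : p.Prime := Fact.out
  have hfinK : Finite (POmega F ⇑Q) := inferInstance
  intro A hinn
  constructor
  · intro h
    by_contra hcop
    rw [hp.coprime_iff_not_dvd, not_not] at hcop
    obtain ⟨t₀, ht₀⟩ := exists_t0 hQ hn hσ hE hj p hp2 hσp hsq hcop
    apply h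
    apply core_eq_bot (lamO hE) (fA hσ) p (conj_injective hQ hn) (H2 _ hE hj)
      (H3 hQ₀ hn hE p t₀ ht₀) (H4' hQ hn hσ (hp.odd_of_ne_two hp2) hσp hE hj) ?_ A hinn
    intro β hβ
    obtain ⟨X, rfl⟩ := hsurj β
    obtain ⟨⟨c, hc⟩, hτ⟩ := fix_lam hQ₀ hn hE (X : GamL ι F) (by
      intro s
      have h1 := hβ s
      rw [lamO_apply, sAut_mk'] at h1
      have h6 := (mk_eq_mk_iff hQ hn _ _).1 h1.symm
      rwa [coe_sOm, coe_mapOm] at h6)
    apply sAut_pow_eq_one X c hc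
    have h1 : (X : GamL ι F).right ∈ Subgroup.zpowers σ := by
      apply mem_zpowers_of_fix'
      intro a ha
      obtain ⟨b, rfl⟩ := (hj a).1 ha
      exact hτ b
    obtain ⟨n, hn'⟩ := Subgroup.mem_zpowers_iff.1 h1
    rw [← hn', ← zpow_natCast, ← _root_.zpow_mul, mul_comm, _root_.zpow_mul, zpow_natCast, hσp,
      _root_.one_zpow]
  · intro hcop
    apply core_ne_bot_of_fix (conj_injective hQ hn) A hinn _ p hcop
    obtain ⟨s, hs⟩ := exists_fixed_ne_one hQ hQ₀ hn hE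
    exact ⟨lamO hE s, H2 _ hE hj _, hs⟩

end Cfsg.Agent.Lib.Helper18BalC
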