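import Mathlib
import Cfsg.Prelude
import Cfsg.Agent.Lib.Helper42BalA
import Cfsg.Agent.Lib.Helper50Aut
import Cfsg.Agent.Lib.Helper50AutStr
import Cfsg.Agent.Lib.Helper50Twist
import Cfsg.Agent.Lib.Helper49EichGen

set_option autoImplicit false

/-! Vocabulary for project 42 = local balance for `PSL_n` (S2686) (helper42). -/

namespace Cfsg.Agent.Lib.Helper42LBDefs

open Matrix Cfsg Cfsg.Agent.Lib.Helper50Aut Cfsg.Agent.Lib.Helper50AutStr
  Cfsg.Agent.Lib.Helper42BalA Cfsg.Agent.Lib.Helper49EichGen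

variable {F : Type*} [Field F] {n : ℕ}

local notation "SLn" => Matrix.SpecialLinearGroup (Fin n) F
local notation "Mn" => Matrix (Fin n) (Fin n) F
local notation "π" => (QuotientGroup.mk : Matrix.SpecialLinearGroup (Fin n) F →
  Matrix.SpecialLinearGroup (Fin n) F ⧸ Subgroup.center (Matrix.SpecialLinearGroup (Fin n) F))
local notation "AutP" => MulAut (Matrix.ProjectiveSpecialLinearGroup (Fin n) F)

/-- The four hypotheses of the abstract local-balance argument, for a subgroup `S` of `SL_n(F)`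
(mapped to `PSL_n(F)` by `π`) and an automorphism `φ` of `PSL_n(F)`. -/
structure Bal (p : ℕ) (S : Subgroup SLn) (φ : AutP) : Prop where
  H2 : ∀ s ∈ S, φ (π s) = π s
  H3 : ∀ N : Subgroup ↥S, N.Normal →
    (∀ x ∈ N, π (x : SLn) = 1) ∨ ∃ t ∈ N, orderOf (π (t : SLn)) = p
  H4 : ∀ k, φ k = k → ∀ s ∈ S, ∃ t ∈ S, k * π s * k⁻¹ * (π s)⁻¹ = π t
  H5 : ∀ β : AutP, (∀ s ∈ S, β (π s) = π s) → β ^ p = 1

/-- the matrices of `SL_n(F)` fixed by the field automorphism `σ` (`= SL_n(F₀)`) -/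
def fixS (σ : F ≃+* F) : Subgroup SLn where
  carrier := {s | mapEquiv σ s = s}
  mul_mem' := by
    intro a b ha hb
    show mapEquiv σ (a * b) = a * b
    rw [map_mul, ha, hb]
  one_mem' := map_one _
  inv_mem' := by
    intro a ha
    show mapEquiv σ a⁻¹ = a⁻¹
    rw [map_inv, ha]

theorem mem_fixS {σ : F ≃+* F} {s : SLn} : s ∈ fixS σ ↔ mapEquiv σ s = s := Iff.rfl

/-- the matrices `s` of `SL_n(F)` with `s g sᵀ = g` -/
def isoS (g : Mn) : Subgroup SLn where
  carrier := {s | (s : Mn) * g * (s : Mn)ᵀ = g}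
  mul_mem' := by
    intro a b ha hb
    show ((a * b : SLn) : Mn) * g * ((a * b : SLn) : Mn)ᵀ = g
    rw [Matrix.SpecialLinearGroup.coe_mul, Matrix.transpose_mul]
    calc (a : Mn) * (b : Mn) * g * ((b : Mn)ᵀ * (a : Mn)ᵀ)
        = (a : Mn) * ((b : Mn) * g * (b : Mn)ᵀ) * (a : Mn)ᵀ := by simp only [mul_assoc]
      _ = g := by rw [hb, ha]
  one_mem' := by
    show ((1 : SLn) : Mn) * g * ((1 : SLn) : Mn)ᵀ = g
    simp
  inv_mem' := by
    intro a ha
    show ((a⁻¹ : SLn) : Mn) * g * ((a⁻¹ : SLn) : Mn)ᵀ = g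
    have h1 : ((a⁻¹ : SLn) : Mn) * (a : Mn) = 1 := by
      rw [← Matrix.SpecialLinearGroup.coe_mul, inv_mul_cancel, Matrix.SpecialLinearGroup.coe_one]
    have h2 : (a : Mn)ᵀ * ((a⁻¹ : SLn) : Mn)ᵀ = 1 := by
      rw [← Matrix.transpose_mul, h1, Matrix.transpose_one]
    have ha' : (a : Mn) * g * (a : Mn)ᵀ = g := ha
    calc ((a⁻¹ : SLn) : Mn) * g * ((a⁻¹ : SLn) : Mn)ᵀ
        = ((a⁻¹ : SLn) : Mn) * ((a : Mn) * g * (a : Mn)ᵀ) * ((a⁻¹ : SLn) : Mn)ᵀ := by rw [ha']
      _ = (((a⁻¹ : SLn) : Mn) * (a : Mn)) * g * ((a : Mn)ᵀ * ((a⁻¹ : SLn) : Mn)ᵀ) := by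
          simp only [mul_assoc]
      _ = g := by rw [h1, h2, one_mul, mul_one]

theorem mem_isoS {g : Mn} {s : SLn} : s ∈ isoS g ↔ (s : Mn) * g * (s : Mn)ᵀ = g := Iff.rfl

/-- the quadratic form `v ↦ vᵀ M v` -/
noncomputable def qf (M : Mn) : QuadraticForm F (Fin n → F) := Matrix.toQuadraticForm' M

/-- the elements of `SL_n(F)` lying in the group `TT Q` generated by the Eichler (Siegel)
transformations `E Q e w` of the quadratic form `Q` (helper49's `Helper49EichGen.TT`) -/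
noncomputable def eichS (Q : QuadraticForm F (Fin n → F)) : Subgroup SLn :=
  ((TT Q).map (Cfsg.isometryGroup F ⇑Q).subtype).comap Matrix.SpecialLinearGroup.toGL

theorem mem_eichS {Q : QuadraticForm F (Fin n → F)} {s : SLn} :
    s ∈ eichS Q ↔ ∃ t ∈ TT Q, ((t : ↥(Cfsg.isometryGroup F ⇑Q)) : GL (Fin n) F)
      = Matrix.SpecialLinearGroup.toGL s := by
  unfold eichS
  rw [Subgroup.mem_comap, Subgroup.mem_map]
  rfl

section TTdefs
variable {ι : Type} [Fintype ι] [DecidableEq ι]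

/-- an isometry is a scalar matrix -/
def IsScal {Q : QuadraticForm F (ι → F)} (x : ↥(Cfsg.isometryGroup F ⇑Q)) : Prop :=
  ∃ c : F, ((x : GL ι F) : Matrix ι ι F) = c • (1 : Matrix ι ι F)

/-- Witt index at most one: two orthogonal singular vectors are proportional -/
def WittOne (Q : QuadraticForm F (ι → F)) : Prop :=
  ∀ e e' : ι → F, Q e = 0 → Q e' = 0 → QuadraticMap.polar ⇑Q e e' = 0 → e ≠ 0 → ∃ c : F, e' = c • e

/-- the conclusion of the `H3` pieces for `TT Q` -/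
def TTH3 (Q : QuadraticForm F (ι → F)) : Prop :=
  ∀ N : Subgroup ↥(TT Q), N.Normal →
    (∀ x ∈ N, IsScal (x : ↥(Cfsg.isometryGroup F ⇑Q))) ∨
      ∃ t ∈ N, ¬ IsScal (t : ↥(Cfsg.isometryGroup F ⇑Q)) ∧
        IsScal ((t * t : ↥(TT Q)) : ↥(Cfsg.isometryGroup F ⇑Q))

end TTdefs

/-- The abstract argument: `O_{p'}(C_A(φ)) = 1` and `p` divides the number of fixed points. -/
theorem Bal.core [Finite F] {p : ℕ} [Fact p.Prime] {S : Subgroup SLn} {φ : AutP} (B : Bal p S φ)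
    (H1 : Function.Injective (MulAut.conj : Matrix.ProjectiveSpecialLinearGroup (Fin n) F →* AutP))
    (hne : ∃ s ∈ S, π s ≠ 1)
    (A : Subgroup AutP) (hinn : ∀ k, MulAut.conj k ∈ A) :
    pPrimeCore p ↥(A ⊓ Subgroup.centralizer {φ}) = ⊥ ∧
      ¬ Nat.Coprime p (Nat.card ↥(MonoidHom.eqLocus φ.toMonoidHom
        (MonoidHom.id (Matrix.ProjectiveSpecialLinearGroup (Fin n) F)))) := by
  classical
  have hfin : Finite (Matrix.ProjectiveSpecialLinearGroup (Fin n) F) := by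
    have : Fintype F := Fintype.ofFinite F
    have : Finite SLn := Finite.of_injective (fun s : SLn => (s : Mn)) Subtype.val_injective
    exact Quotient.finite _
  let lam : ↥S →* Matrix.ProjectiveSpecialLinearGroup (Fin n) F :=
    (QuotientGroup.mk' (Subgroup.center SLn)).comp S.subtype
  constructor
  · apply core_eq_bot lam φ p H1
    · intro s; exact B.H2 s s.2
    · intro N hN
      rcases B.H3 N hN with h | ⟨t, ht, ho⟩
      · left; intro x hx; exact h x hx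
      · right; exact ⟨t, ht, ho⟩
    · intro k hk s
      obtain ⟨t, ht, e⟩ := B.H4 k hk s s.2
      exact ⟨⟨t, ht⟩, e⟩
    · intro β hβ
      exact B.H5 β (fun s hs => hβ ⟨s, hs⟩)
    · exact hinn
  · rcases B.H3 ⊤ inferInstance with h | ⟨t, -, ho⟩
    · obtain ⟨s, hs, hs1⟩ := hne
      exact absurd (h ⟨s, hs⟩ trivial) hs1
    · intro hc
      have hmem : π (t : SLn) ∈ MonoidHom.eqLocus φ.toMonoidHom
          (MonoidHom.id (Matrix.ProjectiveSpecialLinearGroup (Fin n) F)) := B.H2 t t.2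
      have h1 : orderOf (⟨π (t : SLn), hmem⟩ : ↥(MonoidHom.eqLocus φ.toMonoidHom
          (MonoidHom.id (Matrix.ProjectiveSpecialLinearGroup (Fin n) F)))) = p := by
        rw [← ho]
        exact (Subgroup.orderOf_mk _ _)
      have h2 := orderOf_dvd_natCard (⟨π (t : SLn), hmem⟩ : ↥(MonoidHom.eqLocus φ.toMonoidHom
          (MonoidHom.id (Matrix.ProjectiveSpecialLinearGroup (Fin n) F))))
      rw [h1] at h2
      have h3 : p ∣ Nat.gcd p (Nat.card ↥(MonoidHom.eqLocus φ.toMonoidHom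
          (MonoidHom.id (Matrix.ProjectiveSpecialLinearGroup (Fin n) F)))) :=
        Nat.dvd_gcd dvd_rfl h2
      rw [hc] at h3
      exact (Fact.out : p.Prime).one_lt.ne' (Nat.dvd_one.1 h3)

end Cfsg.Agent.Lib.Helper42LBDefs
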