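import Mathlib
import Cfsg.Agent.Lib.Helper18BalC
import Cfsg.Agent.Lib.Helper42LBDefs

set_option autoImplicit false
set_option linter.unusedSectionVars false

/-! Local balance: orthogonal sums and block diagonal isometries (helper18). -/

namespace Cfsg.Agent.Lib.Helper18BalD

open Cfsg Matrix Module
open scoped MatrixGroups
open Cfsg.Agent.Lib.Helper49Orth Cfsg.Agent.Lib.Helper49Center Cfsg.Agent.Lib.Helper49Eich
  Cfsg.Agent.Lib.Helper49EichGen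
  Cfsg.Agent.Lib.Helper51OrthAut Cfsg.Agent.Lib.Helper51OrthIdx
  Cfsg.Agent.Lib.Helper18GamA Cfsg.Agent.Lib.Helper18GamB
  Cfsg.Agent.Lib.Helper18BalA Cfsg.Agent.Lib.Helper18BalB Cfsg.Agent.Lib.Helper18BalC
  Cfsg.Agent.Lib.Helper42LBDefs

variable {F : Type*} [Field F]
variable {κ₁ κ₂ : Type} [Fintype κ₁] [DecidableEq κ₁] [Fintype κ₂] [DecidableEq κ₂]
variable (Q₁ : QuadraticForm F (κ₁ → F)) (Q₂ : QuadraticForm F (κ₂ → F))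

/-- The orthogonal sum of two forms. -/
noncomputable def Qsum : QuadraticForm F (κ₁ ⊕ κ₂ → F) :=
  Q₁.comp (LinearMap.funLeft F F Sum.inl) + Q₂.comp (LinearMap.funLeft F F Sum.inr)

theorem Qsum_apply (v : κ₁ ⊕ κ₂ → F) :
    Qsum Q₁ Q₂ v = Q₁ (v ∘ Sum.inl) + Q₂ (v ∘ Sum.inr) := rfl

theorem polar_Qsum (u v : κ₁ ⊕ κ₂ → F) :
    QuadraticMap.polar ⇑(Qsum Q₁ Q₂) u v = QuadraticMap.polar ⇑Q₁ (u ∘ Sum.inl) (v ∘ Sum.inl)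
      + QuadraticMap.polar ⇑Q₂ (u ∘ Sum.inr) (v ∘ Sum.inr) := by
  unfold QuadraticMap.polar
  rw [Qsum_apply, Qsum_apply, Qsum_apply]
  have h1 : (u + v) ∘ Sum.inl = u ∘ Sum.inl + v ∘ Sum.inl := rfl
  have h2 : (u + v) ∘ Sum.inr = u ∘ Sum.inr + v ∘ Sum.inr := rfl
  rw [h1, h2]
  ring

/-- the two embeddings -/
def il (u : κ₁ → F) : κ₁ ⊕ κ₂ → F := Sum.elim u 0
def ir (v : κ₂ → F) : κ₁ ⊕ κ₂ → F := Sum.elim 0 v

@[simp] theorem il_inl (u : κ₁ → F) : (il u : κ₁ ⊕ κ₂ → F) ∘ Sum.inl = u := rfl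
@[simp] theorem il_inr (u : κ₁ → F) : (il u : κ₁ ⊕ κ₂ → F) ∘ Sum.inr = 0 := rfl
@[simp] theorem ir_inl (u : κ₂ → F) : (ir u : κ₁ ⊕ κ₂ → F) ∘ Sum.inl = 0 := rfl
@[simp] theorem ir_inr (u : κ₂ → F) : (ir u : κ₁ ⊕ κ₂ → F) ∘ Sum.inr = u := rfl

theorem il_add_ir (v : κ₁ ⊕ κ₂ → F) : il (v ∘ Sum.inl) + ir (v ∘ Sum.inr) = v := by
  funext k
  rcases k with k | k <;> simp [il, ir]

theorem il_smul (a : F) (u : κ₁ → F) : (il (a • u) : κ₁ ⊕ κ₂ → F) = a • il u := by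
  funext k
  rcases k with k | k <;> simp [il]

theorem ir_smul (a : F) (u : κ₂ → F) : (ir (a • u) : κ₁ ⊕ κ₂ → F) = a • ir u := by
  funext k
  rcases k with k | k <;> simp [ir]

theorem il_add (u v : κ₁ → F) : (il (u + v) : κ₁ ⊕ κ₂ → F) = il u + il v := by
  funext k
  rcases k with k | k <;> simp [il]

theorem ir_add (u v : κ₂ → F) : (ir (u + v) : κ₁ ⊕ κ₂ → F) = ir u + ir v := by
  funext k
  rcases k with k | k <;> simp [ir]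

theorem il_eq_of_inr {v : κ₁ ⊕ κ₂ → F} (h : v ∘ Sum.inr = 0) : v = il (v ∘ Sum.inl) := by
  conv_lhs => rw [← il_add_ir v, h]
  funext k
  rcases k with k | k <;> simp [il, ir]

theorem ir_eq_of_inl {v : κ₁ ⊕ κ₂ → F} (h : v ∘ Sum.inl = 0) : v = ir (v ∘ Sum.inr) := by
  conv_lhs => rw [← il_add_ir v, h]
  funext k
  rcases k with k | k <;> simp [il, ir]

/-- block diagonal matrices -/
def bdGL : GL κ₁ F × GL κ₂ F →* GL (κ₁ ⊕ κ₂) F where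
  toFun s := ⟨fromBlocks (s.1 : Matrix κ₁ κ₁ F) 0 0 (s.2 : Matrix κ₂ κ₂ F),
    fromBlocks ((s.1⁻¹ : GL κ₁ F) : Matrix κ₁ κ₁ F) 0 0 ((s.2⁻¹ : GL κ₂ F) : Matrix κ₂ κ₂ F), by
      rw [fromBlocks_multiply]
      simp only [Matrix.mul_zero, Matrix.zero_mul, add_zero, zero_add, ← Units.val_mul,
        mul_inv_cancel, Units.val_one, fromBlocks_one], by
      rw [fromBlocks_multiply]
      simp only [Matrix.mul_zero, Matrix.zero_mul, add_zero, zero_add, ← Units.val_mul,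
        inv_mul_cancel, Units.val_one, fromBlocks_one]⟩
  map_one' := Units.ext (by simp [fromBlocks_one])
  map_mul' a b := Units.ext (by simp [fromBlocks_multiply])

theorem coe_bdGL (s : GL κ₁ F × GL κ₂ F) : (bdGL s : Matrix (κ₁ ⊕ κ₂) (κ₁ ⊕ κ₂) F)
    = fromBlocks (s.1 : Matrix κ₁ κ₁ F) 0 0 (s.2 : Matrix κ₂ κ₂ F) := rfl

theorem bdGL_mulVec (s : GL κ₁ F × GL κ₂ F) (v : κ₁ ⊕ κ₂ → F) :
    (bdGL s : Matrix (κ₁ ⊕ κ₂) (κ₁ ⊕ κ₂) F) *ᵥ v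
      = Sum.elim ((s.1 : Matrix κ₁ κ₁ F) *ᵥ (v ∘ Sum.inl)) ((s.2 : Matrix κ₂ κ₂ F) *ᵥ (v ∘ Sum.inr)) := by
  rw [coe_bdGL, fromBlocks_mulVec]
  simp

/-- block diagonal isometries -/
noncomputable def bdO : ↥(isometryGroup F ⇑Q₁) × ↥(isometryGroup F ⇑Q₂) →* ↥(isometryGroup F ⇑(Qsum Q₁ Q₂)) :=
  (bdGL.comp ((isometryGroup F ⇑Q₁).subtype.prodMap (isometryGroup F ⇑Q₂).subtype)).codRestrict _
    (fun s => by
      rw [mem_iso]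
      intro v
      change Qsum Q₁ Q₂ ((bdGL ((s.1 : GL κ₁ F), (s.2 : GL κ₂ F)) :
        Matrix (κ₁ ⊕ κ₂) (κ₁ ⊕ κ₂) F) *ᵥ v) = _
      rw [bdGL_mulVec, Qsum_apply, Qsum_apply, Sum.elim_comp_inl, Sum.elim_comp_inr,
        iso_apply (Q := ⇑Q₁), iso_apply (Q := ⇑Q₂)])

theorem coe_bdO (s : ↥(isometryGroup F ⇑Q₁) × ↥(isometryGroup F ⇑Q₂)) :
    ((bdO Q₁ Q₂ s : ↥(isometryGroup F ⇑(Qsum Q₁ Q₂))) : GL (κ₁ ⊕ κ₂) F)
      = bdGL ((s.1 : GL κ₁ F), (s.2 : GL κ₂ F)) := rfl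

theorem bdO_mulVec (s : ↥(isometryGroup F ⇑Q₁) × ↥(isometryGroup F ⇑Q₂)) (v : κ₁ ⊕ κ₂ → F) :
    (((bdO Q₁ Q₂ s : ↥(isometryGroup F ⇑(Qsum Q₁ Q₂))) : GL (κ₁ ⊕ κ₂) F) :
      Matrix (κ₁ ⊕ κ₂) (κ₁ ⊕ κ₂) F) *ᵥ v
      = Sum.elim (((s.1 : GL κ₁ F) : Matrix κ₁ κ₁ F) *ᵥ (v ∘ Sum.inl))
        (((s.2 : GL κ₂ F) : Matrix κ₂ κ₂ F) *ᵥ (v ∘ Sum.inr)) := by
  rw [coe_bdO, bdGL_mulVec]

theorem Q_il (u : κ₁ → F) : Qsum Q₁ Q₂ (il u) = Q₁ u := by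
  rw [Qsum_apply, il_inl, il_inr, QuadraticMap.map_zero, add_zero]

theorem Q_ir (u : κ₂ → F) : Qsum Q₁ Q₂ (ir u) = Q₂ u := by
  rw [Qsum_apply, ir_inl, ir_inr, QuadraticMap.map_zero, zero_add]

theorem polar_il (x : κ₁ ⊕ κ₂ → F) (u : κ₁ → F) :
    QuadraticMap.polar ⇑(Qsum Q₁ Q₂) x (il u) = QuadraticMap.polar ⇑Q₁ (x ∘ Sum.inl) u := by
  rw [polar_Qsum, il_inl, il_inr, QuadraticMap.polar_zero_right, add_zero]

theorem polar_ir (x : κ₁ ⊕ κ₂ → F) (u : κ₂ → F) :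
    QuadraticMap.polar ⇑(Qsum Q₁ Q₂) x (ir u) = QuadraticMap.polar ⇑Q₂ (x ∘ Sum.inr) u := by
  rw [polar_Qsum, ir_inl, ir_inr, QuadraticMap.polar_zero_right, zero_add]

theorem bdO_E_left {e w : κ₁ → F} (he : Q₁ e = 0) (hw : QuadraticMap.polar ⇑Q₁ e w = 0) :
    bdO Q₁ Q₂ (E Q₁ e w, 1) = E (Qsum Q₁ Q₂) (il e) (il w) := by
  apply ext_mulVec
  intro x
  rw [E_apply (Qsum Q₁ Q₂) (by rw [Q_il, he]) (by rw [polar_il, il_inl, hw]), bdO_mulVec,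
    E_apply Q₁ he hw, polar_il, polar_il, Q_il]
  funext k
  rcases k with k | k <;> simp [il]

theorem bdO_E_right {e w : κ₂ → F} (he : Q₂ e = 0) (hw : QuadraticMap.polar ⇑Q₂ e w = 0) :
    bdO Q₁ Q₂ (1, E Q₂ e w) = E (Qsum Q₁ Q₂) (ir e) (ir w) := by
  apply ext_mulVec
  intro x
  rw [E_apply (Qsum Q₁ Q₂) (by rw [Q_ir, he]) (by rw [polar_ir, ir_inr, hw]), bdO_mulVec,
    E_apply Q₂ he hw, polar_ir, polar_ir, Q_ir]
  funext k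
  rcases k with k | k <;> simp [ir]

theorem nondeg_left (hQ : (QuadraticMap.polarBilin (Qsum Q₁ Q₂)).Nondegenerate) :
    (QuadraticMap.polarBilin Q₁).Nondegenerate := by
  rw [Cfsg.Agent.Lib.Helper42Quad.nondeg_iff] at hQ ⊢
  intro x hx
  have h1 : (il x : κ₁ ⊕ κ₂ → F) = 0 := by
    apply hQ
    intro y
    rw [polar_Qsum, il_inl, il_inr, hx, QuadraticMap.polar_zero_left, add_zero]
  have := congrArg (fun v : κ₁ ⊕ κ₂ → F => v ∘ Sum.inl) h1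
  simpa using this

theorem nondeg_right (hQ : (QuadraticMap.polarBilin (Qsum Q₁ Q₂)).Nondegenerate) :
    (QuadraticMap.polarBilin Q₂).Nondegenerate := by
  rw [Cfsg.Agent.Lib.Helper42Quad.nondeg_iff] at hQ ⊢
  intro x hx
  have h1 : (ir x : κ₁ ⊕ κ₂ → F) = 0 := by
    apply hQ
    intro y
    rw [polar_Qsum, ir_inl, ir_inr, hx, QuadraticMap.polar_zero_left, zero_add]
  have := congrArg (fun v : κ₁ ⊕ κ₂ → F => v ∘ Sum.inr) h1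
  simpa using this

end Cfsg.Agent.Lib.Helper18BalD
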