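import Mathlib
import Cfsg.Agent.Lib.Helper18BalD

set_option autoImplicit false
set_option linter.unusedSectionVars false

/-! Local balance: properties of `TT Q` in odd dimension (helper18). -/

namespace Cfsg.Agent.Lib.Helper18BalE

open Cfsg Matrix Module
open scoped MatrixGroups
open Cfsg.Agent.Lib.Helper49Orth Cfsg.Agent.Lib.Helper49Center Cfsg.Agent.Lib.Helper49Eich
  Cfsg.Agent.Lib.Helper49EichGen
  Cfsg.Agent.Lib.Helper51OrthAut Cfsg.Agent.Lib.Helper51OrthIdx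
  Cfsg.Agent.Lib.Helper18GamA Cfsg.Agent.Lib.Helper18GamB
  Cfsg.Agent.Lib.Helper18BalA Cfsg.Agent.Lib.Helper18BalB Cfsg.Agent.Lib.Helper18BalC
  Cfsg.Agent.Lib.Helper18BalD Cfsg.Agent.Lib.Helper42LBDefs

variable {F : Type*} [Field F]
variable {ι : Type} [Fintype ι] [DecidableEq ι]

/-- The properties of a form used for a factor of the centraliser. -/
structure Nice (Q : QuadraticForm F (ι → F)) : Prop where
  h3 : TTH3 Q
  scal_one : ∀ t ∈ TT Q, IsScal t → t = 1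
  lin : ∀ T₂ : (ι → F) →+ (ι → F), (∀ (a : F) v, T₂ (a • v) = a • T₂ v) → CommE Q T₂ →
    ∃ c : F, ∀ v, T₂ v = c • v
  ns : ∃ v, Q v ≠ 0

theorem E_half (h2 : (2 : F) ≠ 0) (Q : QuadraticForm F (ι → F)) {e w : ι → F} (he : Q e = 0)
    (hw : QuadraticMap.polar ⇑Q e w = 0) :
    QuadraticMap.polar ⇑Q e ((2 : F)⁻¹ • w) = 0 ∧
      E Q e w = E Q e ((2 : F)⁻¹ • w) * E Q e ((2 : F)⁻¹ • w) := by
  have hw' : QuadraticMap.polar ⇑Q e ((2 : F)⁻¹ • w) = 0 := by
    rw [QuadraticMap.polar_smul_right, hw, smul_zero]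
  refine ⟨hw', ?_⟩
  rw [E_mul Q he hw' hw', ← add_smul]
  congr 1
  have : (2 : F)⁻¹ + (2 : F)⁻¹ = 1 := by field_simp; norm_num
  rw [this, one_smul]

theorem det_TT (h2 : (2 : F) ≠ 0) (Q : QuadraticForm F (ι → F))
    (hQ : (QuadraticMap.polarBilin Q).Nondegenerate) : TT Q ≤ (detO Q).ker := by
  unfold TT
  rw [Subgroup.closure_le]
  rintro _ ⟨e, w, he, hw, rfl⟩
  obtain ⟨hw', h1⟩ := E_half h2 Q he hw
  show detO Q (E Q e w) = 1
  rw [h1, map_mul]
  apply Units.ext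
  rw [Units.val_mul, detO_apply, Units.val_one]
  have := det_sq_of_sim Q hQ _ 1 (fun v => by
    rw [iso_apply (Q := ⇑Q) (E Q e ((2 : F)⁻¹ • w)), one_mul])
  rwa [one_pow] at this

theorem exists_ns (h2 : (2 : F) ≠ 0) (Q : QuadraticForm F (ι → F))
    (hQ : (QuadraticMap.polarBilin Q).Nondegenerate) [Nonempty ι] : ∃ v, Q v ≠ 0 := by
  by_contra hcon
  push Not at hcon
  obtain ⟨k⟩ : Nonempty ι := inferInstance
  have h1 : (Pi.single k 1 : ι → F) = 0 := by
    apply hQ.1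
    intro y
    show QuadraticMap.polar ⇑Q _ y = 0
    unfold QuadraticMap.polar
    rw [hcon, hcon, hcon]
    simp
  have := congrFun h1 k
  simp at this

theorem scal_eq_one (h2 : (2 : F) ≠ 0) (Q : QuadraticForm F (ι → F))
    (hQ : (QuadraticMap.polarBilin Q).Nondegenerate) (hodd : Odd (Fintype.card ι))
    (t : ↥(isometryGroup F ⇑Q)) (ht : t ∈ TT Q) (hs : IsScal t) : t = 1 := by
  have : Nonempty ι := by
    rw [← Fintype.card_pos_iff]
    exact hodd.pos
  obtain ⟨c, hc⟩ := hs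
  obtain ⟨v, hv⟩ := exists_ns h2 Q hQ
  have h1 := iso_apply (Q := ⇑Q) t v
  rw [hc, Matrix.smul_mulVec, Matrix.one_mulVec, QuadraticMap.map_smul, smul_eq_mul] at h1
  have h3 : c * c = 1 := by
    have : (c * c - 1) * Q v = 0 := by linear_combination h1
    have := (mul_eq_zero.1 this).resolve_right hv
    linear_combination this
  have h4 : detO Q t = 1 := det_TT h2 Q hQ ht
  have h5 := congrArg (fun u : Fˣ => (u : F)) h4
  simp only [detO_apply, Units.val_one] at h5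
  rw [hc, Matrix.det_smul, Matrix.det_one, mul_one] at h5
  obtain ⟨k, hk⟩ := hodd
  rw [hk, pow_succ, pow_mul, pow_two, h3, one_pow, one_mul] at h5
  apply iso_ext
  rw [hc, h5, one_smul]
  rfl

theorem nice_of_three [Fintype F] (h2 : (2 : F) ≠ 0) (Q : QuadraticForm F (ι → F))
    (hQ : (QuadraticMap.polarBilin Q).Nondegenerate) (hodd : Odd (Fintype.card ι))
    (hn : 3 ≤ Fintype.card ι) (h3 : TTH3 Q) : Nice Q where
  h3 := h3
  scal_one := scal_eq_one h2 Q hQ hodd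
  lin := fun T₂ _ hT => scalar_of_commE' hQ hn hT
  ns := by
    have : Nonempty ι := by
      rw [← Fintype.card_pos_iff]
      omega
    exact exists_ns h2 Q hQ

theorem nice_of_one (h2 : (2 : F) ≠ 0) (Q : QuadraticForm F (ι → F))
    (hQ : (QuadraticMap.polarBilin Q).Nondegenerate) (hn : Fintype.card ι = 1) : Nice Q := by
  obtain ⟨k, hk⟩ := Fintype.card_eq_one_iff.1 hn
  have hsc : ∀ M : Matrix ι ι F, M = M k k • (1 : Matrix ι ι F) := by
    intro M
    ext a b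
    rw [hk a, hk b]
    simp
  have : Nonempty ι := ⟨k⟩
  refine ⟨fun N _ => Or.inl (fun x _ => ⟨_, hsc _⟩), scal_eq_one h2 Q hQ (by rw [hn]; exact odd_one),
    fun T₂ hT _ => ⟨T₂ (Pi.single k 1) k, fun v => ?_⟩, exists_ns h2 Q hQ⟩
  have hv : v = v k • Pi.single k 1 := by
    funext a
    rw [hk a]
    simp
  conv_lhs => rw [hv, hT]
  funext a
  rw [hk a]
  simp [mul_comm]

/-- a central element of `TT Q` is trivial -/
theorem Nice.center {Q : QuadraticForm F (ι → F)} (N : Nice Q) (t : ↥(isometryGroup F ⇑Q))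
    (ht : t ∈ TT Q) (hc : ∀ u ∈ TT Q, t * u = u * t) : t = 1 := by
  apply N.scal_one t ht
  obtain ⟨c, hc'⟩ := N.lin (Matrix.mulVecLin ((t : GL ι F) : Matrix ι ι F)).toAddMonoidHom
    (fun a v => by
      show ((t : GL ι F) : Matrix ι ι F) *ᵥ (a • v) = a • (((t : GL ι F) : Matrix ι ι F) *ᵥ v)
      rw [Matrix.mulVec_smul])
    (fun e w he hw x => by
      show ((t : GL ι F) : Matrix ι ι F) *ᵥ _ = _ *ᵥ (((t : GL ι F) : Matrix ι ι F) *ᵥ x)
      rw [← mul_mulVec, ← mul_mulVec, hc _ (E_mem_TT Q he hw)])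
  refine ⟨c, ?_⟩
  apply Matrix.ext_of_mulVec_single
  intro k
  rw [Matrix.smul_mulVec, Matrix.one_mulVec]
  exact hc' _

end Cfsg.Agent.Lib.Helper18BalE
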