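import Mathlib
import Cfsg.Agent.Lib.Helper18BalE

set_option autoImplicit false
set_option linter.unusedSectionVars false

/-! Local balance: involutions `1 ⊥ -1` on an orthogonal sum of two odd dimensional spaces
(helper18). -/

namespace Cfsg.Agent.Lib.Helper18BalF

open Cfsg Matrix Module
open scoped MatrixGroups
open Cfsg.Agent.Lib.Helper49Orth Cfsg.Agent.Lib.Helper49Center Cfsg.Agent.Lib.Helper49Eich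
  Cfsg.Agent.Lib.Helper49EichGen
  Cfsg.Agent.Lib.Helper51OrthAut Cfsg.Agent.Lib.Helper51OrthIdx Cfsg.Agent.Lib.Helper51OrthIdx2
  Cfsg.Agent.Lib.Helper18GamA Cfsg.Agent.Lib.Helper18GamB
  Cfsg.Agent.Lib.Helper18BalA Cfsg.Agent.Lib.Helper18BalB Cfsg.Agent.Lib.Helper18BalC
  Cfsg.Agent.Lib.Helper18BalD Cfsg.Agent.Lib.Helper18BalE Cfsg.Agent.Lib.Helper42LBDefs

variable {F : Type*} [Field F]
variable {κ₁ κ₂ : Type} [Fintype κ₁] [DecidableEq κ₁] [Fintype κ₂] [DecidableEq κ₂]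
variable (Q₁ : QuadraticForm F (κ₁ → F)) (Q₂ : QuadraticForm F (κ₂ → F))

/-- the map `TT Q₁ × TT Q₂ → O(Q₁ ⊥ Q₂)` -/
noncomputable def Lraw : ↥(TT Q₁) × ↥(TT Q₂) →* ↥(isometryGroup F ⇑(Qsum Q₁ Q₂)) :=
  (bdO Q₁ Q₂).comp ((TT Q₁).subtype.prodMap (TT Q₂).subtype)

theorem Lraw_apply (s : ↥(TT Q₁) × ↥(TT Q₂)) :
    Lraw Q₁ Q₂ s = bdO Q₁ Q₂ ((s.1 : ↥(isometryGroup F ⇑Q₁)), (s.2 : ↥(isometryGroup F ⇑Q₂))) := rfl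

/-- the generators of the image -/
def GenSet : Set ↥(isometryGroup F ⇑(Qsum Q₁ Q₂)) :=
  {g | (∃ e w : κ₁ → F, Q₁ e = 0 ∧ QuadraticMap.polar ⇑Q₁ e w = 0 ∧
      g = E (Qsum Q₁ Q₂) (il e) (il w)) ∨
    (∃ e w : κ₂ → F, Q₂ e = 0 ∧ QuadraticMap.polar ⇑Q₂ e w = 0 ∧
      g = E (Qsum Q₁ Q₂) (ir e) (ir w))}

/-- the image -/
noncomputable def RR : Subgroup ↥(isometryGroup F ⇑(Qsum Q₁ Q₂)) := Subgroup.closure (GenSet Q₁ Q₂)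

theorem bdO_left_mem (s : ↥(isometryGroup F ⇑Q₁)) (hs : s ∈ TT Q₁) :
    bdO Q₁ Q₂ (s, 1) ∈ RR Q₁ Q₂ := by
  have h : TT Q₁ ≤ (RR Q₁ Q₂).comap ((bdO Q₁ Q₂).comp (MonoidHom.inl _ _)) := by
    unfold TT
    rw [Subgroup.closure_le]
    rintro _ ⟨e, w, he, hw, rfl⟩
    show bdO Q₁ Q₂ (E Q₁ e w, 1) ∈ RR Q₁ Q₂
    rw [bdO_E_left Q₁ Q₂ he hw]
    exact Subgroup.subset_closure (Or.inl ⟨e, w, he, hw, rfl⟩)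
  exact h hs

theorem bdO_right_mem (s : ↥(isometryGroup F ⇑Q₂)) (hs : s ∈ TT Q₂) :
    bdO Q₁ Q₂ (1, s) ∈ RR Q₁ Q₂ := by
  have h : TT Q₂ ≤ (RR Q₁ Q₂).comap ((bdO Q₁ Q₂).comp (MonoidHom.inr _ _)) := by
    unfold TT
    rw [Subgroup.closure_le]
    rintro _ ⟨e, w, he, hw, rfl⟩
    show bdO Q₁ Q₂ (1, E Q₂ e w) ∈ RR Q₁ Q₂
    rw [bdO_E_right Q₁ Q₂ he hw]
    exact Subgroup.subset_closure (Or.inr ⟨e, w, he, hw, rfl⟩)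
  exact h hs

theorem Lraw_mem_RR (s : ↥(TT Q₁) × ↥(TT Q₂)) : Lraw Q₁ Q₂ s ∈ RR Q₁ Q₂ := by
  have h : Lraw Q₁ Q₂ s = bdO Q₁ Q₂ ((s.1 : ↥(isometryGroup F ⇑Q₁)), 1) *
      bdO Q₁ Q₂ (1, (s.2 : ↥(isometryGroup F ⇑Q₂))) := by
    rw [Lraw_apply, ← map_mul, Prod.mk_mul_mk, mul_one, one_mul]
  rw [h]
  exact mul_mem (bdO_left_mem Q₁ Q₂ _ s.1.2) (bdO_right_mem Q₁ Q₂ _ s.2.2)

theorem RR_le_range : RR Q₁ Q₂ ≤ (Lraw Q₁ Q₂).range := by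
  unfold RR
  rw [Subgroup.closure_le]
  rintro _ (⟨e, w, he, hw, rfl⟩ | ⟨e, w, he, hw, rfl⟩)
  · exact ⟨(⟨E Q₁ e w, E_mem_TT Q₁ he hw⟩, 1), by
      rw [Lraw_apply]; exact bdO_E_left Q₁ Q₂ he hw⟩
  · exact ⟨(1, ⟨E Q₂ e w, E_mem_TT Q₂ he hw⟩), by
      rw [Lraw_apply]; exact bdO_E_right Q₁ Q₂ he hw⟩

theorem RR_le_TT : RR Q₁ Q₂ ≤ TT (Qsum Q₁ Q₂) := by
  unfold RR
  rw [Subgroup.closure_le]
  rintro _ (⟨e, w, he, hw, rfl⟩ | ⟨e, w, he, hw, rfl⟩)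
  · exact E_mem_TT _ (by rw [Q_il, he]) (by rw [polar_il, il_inl, hw])
  · exact E_mem_TT _ (by rw [Q_ir, he]) (by rw [polar_ir, ir_inr, hw])

/-- `y` preserves the two summands -/
def Pres (y : ↥(isometryGroup F ⇑(Qsum Q₁ Q₂))) : Prop :=
  (∀ u : κ₁ → F, ∃ u' : κ₁ → F, ((y : GL (κ₁ ⊕ κ₂) F) : Matrix (κ₁ ⊕ κ₂) (κ₁ ⊕ κ₂) F) *ᵥ il u = il u') ∧
  (∀ u : κ₂ → F, ∃ u' : κ₂ → F, ((y : GL (κ₁ ⊕ κ₂) F) : Matrix (κ₁ ⊕ κ₂) (κ₁ ⊕ κ₂) F) *ᵥ ir u = ir u')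

/-- `y` interchanges the two summands -/
def Swp (y : ↥(isometryGroup F ⇑(Qsum Q₁ Q₂))) : Prop :=
  (∀ u : κ₁ → F, ∃ u' : κ₂ → F, ((y : GL (κ₁ ⊕ κ₂) F) : Matrix (κ₁ ⊕ κ₂) (κ₁ ⊕ κ₂) F) *ᵥ il u = ir u') ∧
  (∀ u : κ₂ → F, ∃ u' : κ₁ → F, ((y : GL (κ₁ ⊕ κ₂) F) : Matrix (κ₁ ⊕ κ₂) (κ₁ ⊕ κ₂) F) *ᵥ ir u = il u')

theorem conj_mem_RR (y : ↥(isometryGroup F ⇑(Qsum Q₁ Q₂))) (hy : Pres Q₁ Q₂ y ∨ Swp Q₁ Q₂ y)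
    (g : ↥(isometryGroup F ⇑(Qsum Q₁ Q₂))) (hg : g ∈ RR Q₁ Q₂) : y * g * y⁻¹ ∈ RR Q₁ Q₂ := by
  have h : RR Q₁ Q₂ ≤ (RR Q₁ Q₂).comap (MulAut.conj y).toMonoidHom := by
    conv_lhs => unfold RR
    rw [Subgroup.closure_le]
    have hl : ∀ e w : κ₁ → F, Q₁ e = 0 → QuadraticMap.polar ⇑Q₁ e w = 0 →
        y * E (Qsum Q₁ Q₂) (il e) (il w) * y⁻¹ ∈ RR Q₁ Q₂ := by
      intro e w he hw
      have he' : Qsum Q₁ Q₂ (il e) = 0 := by rw [Q_il, he]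
      have hw' : QuadraticMap.polar ⇑(Qsum Q₁ Q₂) (il e) (il w) = 0 := by
        rw [polar_il, il_inl, hw]
      rw [E_conj _ y he' hw']
      have h1 := iso_apply (Q := ⇑(Qsum Q₁ Q₂)) y (il e)
      have h2 := polar_iso (Qsum Q₁ Q₂) y (il e) (il w)
      rcases hy with hy | hy
      · obtain ⟨e', he''⟩ := hy.1 e
        obtain ⟨w', hw''⟩ := hy.1 w
        rw [he''] at h1 h2 ⊢
        rw [hw''] at h2 ⊢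
        rw [Q_il, he'] at h1
        rw [polar_il, il_inl, hw'] at h2
        exact Subgroup.subset_closure (Or.inl ⟨e', w', h1, h2, rfl⟩)
      · obtain ⟨e', he''⟩ := hy.1 e
        obtain ⟨w', hw''⟩ := hy.1 w
        rw [he''] at h1 h2 ⊢
        rw [hw''] at h2 ⊢
        rw [Q_ir, he'] at h1
        rw [polar_ir, ir_inr, hw'] at h2
        exact Subgroup.subset_closure (Or.inr ⟨e', w', h1, h2, rfl⟩)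
    have hr : ∀ e w : κ₂ → F, Q₂ e = 0 → QuadraticMap.polar ⇑Q₂ e w = 0 →
        y * E (Qsum Q₁ Q₂) (ir e) (ir w) * y⁻¹ ∈ RR Q₁ Q₂ := by
      intro e w he hw
      have he' : Qsum Q₁ Q₂ (ir e) = 0 := by rw [Q_ir, he]
      have hw' : QuadraticMap.polar ⇑(Qsum Q₁ Q₂) (ir e) (ir w) = 0 := by
        rw [polar_ir, ir_inr, hw]
      rw [E_conj _ y he' hw']
      have h1 := iso_apply (Q := ⇑(Qsum Q₁ Q₂)) y (ir e)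
      have h2 := polar_iso (Qsum Q₁ Q₂) y (ir e) (ir w)
      rcases hy with hy | hy
      · obtain ⟨e', he''⟩ := hy.2 e
        obtain ⟨w', hw''⟩ := hy.2 w
        rw [he''] at h1 h2 ⊢
        rw [hw''] at h2 ⊢
        rw [Q_ir, he'] at h1
        rw [polar_ir, ir_inr, hw'] at h2
        exact Subgroup.subset_closure (Or.inr ⟨e', w', h1, h2, rfl⟩)
      · obtain ⟨e', he''⟩ := hy.2 e
        obtain ⟨w', hw''⟩ := hy.2 w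
        rw [he''] at h1 h2 ⊢
        rw [hw''] at h2 ⊢
        rw [Q_il, he'] at h1
        rw [polar_il, il_inl, hw'] at h2
        exact Subgroup.subset_closure (Or.inl ⟨e', w', h1, h2, rfl⟩)
    rintro _ (⟨e, w, he, hw, rfl⟩ | ⟨e, w, he, hw, rfl⟩)
    · exact hl e w he hw
    · exact hr e w he hw
  exact h hg

/-- `-1` as an isometry -/
def mOne (Q : QuadraticForm F (κ₂ → F)) : ↥(isometryGroup F ⇑Q) :=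
  ⟨-1, by
    rw [mem_iso]
    intro v
    rw [Units.val_neg, Units.val_one, Matrix.neg_mulVec, Matrix.one_mulVec, QuadraticMap.map_neg]⟩

/-- the involution `1 ⊥ -1` -/
noncomputable def g0 : ↥(isometryGroup F ⇑(Qsum Q₁ Q₂)) := bdO Q₁ Q₂ (1, mOne Q₂)

theorem coe_g0 : (((g0 Q₁ Q₂ : ↥(isometryGroup F ⇑(Qsum Q₁ Q₂))) : GL (κ₁ ⊕ κ₂) F) :
    Matrix (κ₁ ⊕ κ₂) (κ₁ ⊕ κ₂) F) = fromBlocks 1 0 0 (-1) := rfl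

theorem g0_mulVec (v : κ₁ ⊕ κ₂ → F) :
    (((g0 Q₁ Q₂ : ↥(isometryGroup F ⇑(Qsum Q₁ Q₂))) : GL (κ₁ ⊕ κ₂) F) :
      Matrix (κ₁ ⊕ κ₂) (κ₁ ⊕ κ₂) F) *ᵥ v = Sum.elim (v ∘ Sum.inl) (-(v ∘ Sum.inr)) := by
  rw [coe_g0, fromBlocks_mulVec]
  simp [Matrix.neg_mulVec]

theorem eq_il_of_g0 (h2 : (2 : F) ≠ 0) {z : κ₁ ⊕ κ₂ → F}
    (h : (((g0 Q₁ Q₂ : ↥(isometryGroup F ⇑(Qsum Q₁ Q₂))) : GL (κ₁ ⊕ κ₂) F) :
      Matrix (κ₁ ⊕ κ₂) (κ₁ ⊕ κ₂) F) *ᵥ z = z) : ∃ u, z = il u := by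
  refine ⟨_, il_eq_of_inr ?_⟩
  rw [g0_mulVec] at h
  funext k
  have := congrFun h (Sum.inr k)
  simp only [Sum.elim_inr, Pi.neg_apply, Function.comp_apply] at this
  have h3 : (2 : F) * z (Sum.inr k) = 0 := by linear_combination -this
  exact (mul_eq_zero.1 h3).resolve_left h2

theorem eq_ir_of_g0 (h2 : (2 : F) ≠ 0) {z : κ₁ ⊕ κ₂ → F}
    (h : (((g0 Q₁ Q₂ : ↥(isometryGroup F ⇑(Qsum Q₁ Q₂))) : GL (κ₁ ⊕ κ₂) F) :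
      Matrix (κ₁ ⊕ κ₂) (κ₁ ⊕ κ₂) F) *ᵥ z = -z) : ∃ u, z = ir u := by
  refine ⟨_, ir_eq_of_inl ?_⟩
  rw [g0_mulVec] at h
  funext k
  have := congrFun h (Sum.inl k)
  simp only [Sum.elim_inl, Pi.neg_apply, Function.comp_apply] at this
  have h3 : (2 : F) * z (Sum.inl k) = 0 := by linear_combination this
  exact (mul_eq_zero.1 h3).resolve_left h2

theorem g0_il (u : κ₁ → F) :
    (((g0 Q₁ Q₂ : ↥(isometryGroup F ⇑(Qsum Q₁ Q₂))) : GL (κ₁ ⊕ κ₂) F) :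
      Matrix (κ₁ ⊕ κ₂) (κ₁ ⊕ κ₂) F) *ᵥ il u = il u := by
  rw [g0_mulVec]
  funext k
  rcases k with k | k <;> simp [il]

theorem g0_ir (u : κ₂ → F) :
    (((g0 Q₁ Q₂ : ↥(isometryGroup F ⇑(Qsum Q₁ Q₂))) : GL (κ₁ ⊕ κ₂) F) :
      Matrix (κ₁ ⊕ κ₂) (κ₁ ⊕ κ₂) F) *ᵥ ir u = -ir u := by
  rw [g0_mulVec]
  funext k
  rcases k with k | k <;> simp [ir]

/-- the semisimilarity attached to `g0` -/
noncomputable def X0 : ↥(GamO ⇑(Qsum Q₁ Q₂)) := inlO _ (incO _ (g0 Q₁ Q₂))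

theorem cj_X0 (u : GL (κ₁ ⊕ κ₂) F) :
    cj ((X0 Q₁ Q₂ : ↥(GamO ⇑(Qsum Q₁ Q₂))) : GamL (κ₁ ⊕ κ₂) F) u
      = ((g0 Q₁ Q₂ : ↥(isometryGroup F ⇑(Qsum Q₁ Q₂))) : GL (κ₁ ⊕ κ₂) F) * u *
        ((g0 Q₁ Q₂ : ↥(isometryGroup F ⇑(Qsum Q₁ Q₂))) : GL (κ₁ ⊕ κ₂) F)⁻¹ := by
  rw [cj_apply]
  show ((g0 Q₁ Q₂ : ↥(isometryGroup F ⇑(Qsum Q₁ Q₂))) : GL (κ₁ ⊕ κ₂) F) * mapAut 1 u * _ = _
  rw [map_one, MulAut.one_apply]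
  rfl

theorem pres_or_swp (h2 : (2 : F) ≠ 0) (y : ↥(isometryGroup F ⇑(Qsum Q₁ Q₂)))
    (hy : PM (y : GL (κ₁ ⊕ κ₂) F)
      (cj ((X0 Q₁ Q₂ : ↥(GamO ⇑(Qsum Q₁ Q₂))) : GamL (κ₁ ⊕ κ₂) F) (y : GL (κ₁ ⊕ κ₂) F))) :
    Pres Q₁ Q₂ y ∨ Swp Q₁ Q₂ y := by
  set G := (((g0 Q₁ Q₂ : ↥(isometryGroup F ⇑(Qsum Q₁ Q₂))) : GL (κ₁ ⊕ κ₂) F) :
      Matrix (κ₁ ⊕ κ₂) (κ₁ ⊕ κ₂) F) with hG
  set Y := ((y : GL (κ₁ ⊕ κ₂) F) : Matrix (κ₁ ⊕ κ₂) (κ₁ ⊕ κ₂) F) with hY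
  have hmul : ∀ M : Matrix (κ₁ ⊕ κ₂) (κ₁ ⊕ κ₂) F,
      ((cj ((X0 Q₁ Q₂ : ↥(GamO ⇑(Qsum Q₁ Q₂))) : GamL (κ₁ ⊕ κ₂) F) (y : GL (κ₁ ⊕ κ₂) F) :
        GL (κ₁ ⊕ κ₂) F) : Matrix (κ₁ ⊕ κ₂) (κ₁ ⊕ κ₂) F) = M → G * Y = M * G := by
    intro M hM
    have e : ((((g0 Q₁ Q₂ : ↥(isometryGroup F ⇑(Qsum Q₁ Q₂))) : GL (κ₁ ⊕ κ₂) F)⁻¹ :
        GL (κ₁ ⊕ κ₂) F) : Matrix (κ₁ ⊕ κ₂) (κ₁ ⊕ κ₂) F) * G = 1 := by
      rw [hG, ← Units.val_mul, inv_mul_cancel, Units.val_one]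
    rw [← hM, cj_X0, Units.val_mul, Units.val_mul, Matrix.mul_assoc, e, Matrix.mul_one]
  rcases hy with hy | hy
  · left
    have h := hmul _ hy
    constructor
    · intro u
      apply eq_il_of_g0 Q₁ Q₂ h2
      rw [Matrix.mulVec_mulVec, ← hG, h, ← Matrix.mulVec_mulVec, hG, g0_il]
    · intro u
      apply eq_ir_of_g0 Q₁ Q₂ h2
      rw [Matrix.mulVec_mulVec, ← hG, h, ← Matrix.mulVec_mulVec, hG, g0_ir, Matrix.mulVec_neg]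
  · right
    have h := hmul _ hy
    constructor
    · intro u
      apply eq_ir_of_g0 Q₁ Q₂ h2
      rw [Matrix.mulVec_mulVec, ← hG, h, ← Matrix.mulVec_mulVec, hG, g0_il, Matrix.neg_mulVec]
    · intro u
      apply eq_il_of_g0 Q₁ Q₂ h2
      rw [Matrix.mulVec_mulVec, ← hG, h, ← Matrix.mulVec_mulVec, hG, g0_ir, Matrix.mulVec_neg,
        Matrix.neg_mulVec, neg_neg]

end Cfsg.Agent.Lib.Helper18BalF
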