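import Mathlib
import Cfsg.Agent.Lib.Helper18BalF

set_option autoImplicit false
set_option linter.unusedSectionVars false

/-! Local balance: the model theorem for the involution `1 ⊥ -1` (helper18). -/

namespace Cfsg.Agent.Lib.Helper18BalG

open Cfsg Matrix Module
open scoped MatrixGroups
open Cfsg.Agent.Lib.Helper49Orth Cfsg.Agent.Lib.Helper49Center Cfsg.Agent.Lib.Helper49Eich
  Cfsg.Agent.Lib.Helper49EichGen
  Cfsg.Agent.Lib.Helper51OrthAut Cfsg.Agent.Lib.Helper51OrthIdx Cfsg.Agent.Lib.Helper51OrthIdx2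
  Cfsg.Agent.Lib.Helper18GamA Cfsg.Agent.Lib.Helper18GamB
  Cfsg.Agent.Lib.Helper18BalA Cfsg.Agent.Lib.Helper18BalB Cfsg.Agent.Lib.Helper18BalC
  Cfsg.Agent.Lib.Helper18BalD Cfsg.Agent.Lib.Helper18BalE Cfsg.Agent.Lib.Helper18BalF
  Cfsg.Agent.Lib.Helper42LBDefs

variable {F : Type*} [Field F] [Fintype F]
variable {κ₁ κ₂ : Type} [Fintype κ₁] [DecidableEq κ₁] [Fintype κ₂] [DecidableEq κ₂]
variable (Q₁ : QuadraticForm F (κ₁ → F)) (Q₂ : QuadraticForm F (κ₂ → F))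

/-- the map to `Ω` -/
noncomputable def LA (hQ : (QuadraticMap.polarBilin (Qsum Q₁ Q₂)).Nondegenerate)
    (hn : 5 ≤ Fintype.card (κ₁ ⊕ κ₂)) : ↥(TT Q₁) × ↥(TT Q₂) →* ↥(Omega F ⇑(Qsum Q₁ Q₂)) :=
  (Lraw Q₁ Q₂).codRestrict _ (fun s => by
    rw [Omega_eq_TT _ hQ hn]
    exact RR_le_TT _ _ (Lraw_mem_RR _ _ s))

theorem coe_LA (hQ : (QuadraticMap.polarBilin (Qsum Q₁ Q₂)).Nondegenerate)
    (hn : 5 ≤ Fintype.card (κ₁ ⊕ κ₂)) (s : ↥(TT Q₁) × ↥(TT Q₂)) :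
    ((LA Q₁ Q₂ hQ hn s : ↥(Omega F ⇑(Qsum Q₁ Q₂))) : ↥(isometryGroup F ⇑(Qsum Q₁ Q₂)))
      = Lraw Q₁ Q₂ s := rfl

omit [Fintype F] in
theorem mOne_comm (s : ↥(isometryGroup F ⇑Q₂)) : mOne Q₂ * s = s * mOne Q₂ := by
  apply iso_ext
  show ((-1 : GL κ₂ F) : Matrix κ₂ κ₂ F) * _ = _ * ((-1 : GL κ₂ F) : Matrix κ₂ κ₂ F)
  rw [Units.val_neg, Units.val_one, Matrix.neg_mul, Matrix.mul_neg, Matrix.one_mul, Matrix.mul_one]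

omit [Fintype F] in
theorem h2A (s : ↥(TT Q₁) × ↥(TT Q₂)) :
    cj ((X0 Q₁ Q₂ : ↥(GamO ⇑(Qsum Q₁ Q₂))) : GamL (κ₁ ⊕ κ₂) F)
      ((Lraw Q₁ Q₂ s : ↥(isometryGroup F ⇑(Qsum Q₁ Q₂))) : GL (κ₁ ⊕ κ₂) F)
      = ((Lraw Q₁ Q₂ s : ↥(isometryGroup F ⇑(Qsum Q₁ Q₂))) : GL (κ₁ ⊕ κ₂) F) := by
  rw [cj_X0]
  have h : g0 Q₁ Q₂ * Lraw Q₁ Q₂ s * (g0 Q₁ Q₂)⁻¹ = Lraw Q₁ Q₂ s := by
    rw [mul_inv_eq_iff_eq_mul, Lraw_apply]
    unfold g0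
    rw [← map_mul, ← map_mul, Prod.mk_mul_mk, Prod.mk_mul_mk, one_mul, mul_one, mOne_comm]
  exact congrArg Subtype.val h

omit [Fintype F] in
theorem isScal_of_PM_left (t : ↥(isometryGroup F ⇑Q₁)) (s : ↥(isometryGroup F ⇑Q₂))
    (h : PM 1 ((bdO Q₁ Q₂ (t, s) : ↥(isometryGroup F ⇑(Qsum Q₁ Q₂))) : GL (κ₁ ⊕ κ₂) F)) :
    IsScal t := by
  rcases h with h | h
  · refine ⟨1, ?_⟩
    ext i k
    have := congrFun (congrFun h (Sum.inl i)) (Sum.inl k)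
    rw [coe_bdO, coe_bdGL] at this
    simpa [Matrix.one_apply] using this
  · refine ⟨-1, ?_⟩
    ext i k
    have := congrFun (congrFun h (Sum.inl i)) (Sum.inl k)
    rw [coe_bdO, coe_bdGL] at this
    by_cases hik : i = k
    · subst hik; simpa using this
    · simpa [Matrix.one_apply, hik] using this

omit [Fintype F] in
theorem isScal_of_PM_right (t : ↥(isometryGroup F ⇑Q₁)) (s : ↥(isometryGroup F ⇑Q₂))
    (h : PM 1 ((bdO Q₁ Q₂ (t, s) : ↥(isometryGroup F ⇑(Qsum Q₁ Q₂))) : GL (κ₁ ⊕ κ₂) F)) :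
    IsScal s := by
  rcases h with h | h
  · refine ⟨1, ?_⟩
    ext i k
    have := congrFun (congrFun h (Sum.inr i)) (Sum.inr k)
    rw [coe_bdO, coe_bdGL] at this
    simpa [Matrix.one_apply] using this
  · refine ⟨-1, ?_⟩
    ext i k
    have := congrFun (congrFun h (Sum.inr i)) (Sum.inr k)
    rw [coe_bdO, coe_bdGL] at this
    by_cases hik : i = k
    · subst hik; simpa using this
    · simpa [Matrix.one_apply, hik] using this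

omit [Fintype F] in
theorem h3A (N₁ : Nice Q₁) (N₂ : Nice Q₂) (N : Subgroup (↥(TT Q₁) × ↥(TT Q₂))) (hN : N.Normal) :
    (∀ n ∈ N, PM 1 ((Lraw Q₁ Q₂ n : ↥(isometryGroup F ⇑(Qsum Q₁ Q₂))) : GL (κ₁ ⊕ κ₂) F)) ∨
    ∃ t ∈ N, ¬ PM 1 ((Lraw Q₁ Q₂ t : ↥(isometryGroup F ⇑(Qsum Q₁ Q₂))) : GL (κ₁ ⊕ κ₂) F) ∧
      PM 1 ((Lraw Q₁ Q₂ (t ^ 2) : ↥(isometryGroup F ⇑(Qsum Q₁ Q₂))) : GL (κ₁ ⊕ κ₂) F) := by
  have hone : PM 1 ((Lraw Q₁ Q₂ 1 : ↥(isometryGroup F ⇑(Qsum Q₁ Q₂))) : GL (κ₁ ⊕ κ₂) F) := by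
    rw [map_one]
    exact Or.inl rfl
  have hNa : (N.comap (MonoidHom.inl ↥(TT Q₁) ↥(TT Q₂))).Normal := hN.comap _
  have hNb : (N.comap (MonoidHom.inr ↥(TT Q₁) ↥(TT Q₂))).Normal := hN.comap _
  rcases N₁.h3 _ hNa with ha | ⟨t, ht, ht1, ht2⟩
  · rcases N₂.h3 _ hNb with hb | ⟨t, ht, ht1, ht2⟩
    · left
      intro n hn
      have ha' : ∀ x : ↥(TT Q₁), (x, (1 : ↥(TT Q₂))) ∈ N → x = 1 := by
        intro x hx
        exact Subtype.ext (N₁.scal_one _ x.2 (ha x hx))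
      have hb' : ∀ x : ↥(TT Q₂), ((1 : ↥(TT Q₁)), x) ∈ N → x = 1 := by
        intro x hx
        exact Subtype.ext (N₂.scal_one _ x.2 (hb x hx))
      have h1 : n.1 = 1 := by
        apply Subtype.ext
        apply N₁.center _ n.1.2
        intro u hu
        have h3 : n * ((⟨u, hu⟩ : ↥(TT Q₁)), (1 : ↥(TT Q₂))) * n⁻¹ *
            ((⟨u, hu⟩ : ↥(TT Q₁)), (1 : ↥(TT Q₂)))⁻¹ ∈ N := by
          have h4 := hN.conj_mem n⁻¹ (N.inv_mem hn) ((⟨u, hu⟩ : ↥(TT Q₁)), (1 : ↥(TT Q₂)))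
          have h5 := N.mul_mem hn h4
          have e : n * (((⟨u, hu⟩ : ↥(TT Q₁)), (1 : ↥(TT Q₂))) * n⁻¹ *
              ((⟨u, hu⟩ : ↥(TT Q₁)), (1 : ↥(TT Q₂)))⁻¹) = n * ((⟨u, hu⟩ : ↥(TT Q₁)), (1 : ↥(TT Q₂))) * n⁻¹ *
            ((⟨u, hu⟩ : ↥(TT Q₁)), (1 : ↥(TT Q₂)))⁻¹ := by group
          rwa [e] at h5
        have e2 : n * ((⟨u, hu⟩ : ↥(TT Q₁)), (1 : ↥(TT Q₂))) * n⁻¹ *
            ((⟨u, hu⟩ : ↥(TT Q₁)), (1 : ↥(TT Q₂)))⁻¹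
            = (n.1 * ⟨u, hu⟩ * n.1⁻¹ * (⟨u, hu⟩ : ↥(TT Q₁))⁻¹, 1) := by
          apply Prod.ext
          · rfl
          · show n.2 * 1 * n.2⁻¹ * 1⁻¹ = 1
            group
        rw [e2] at h3
        have h6 := ha' _ h3
        have h7 : n.1 * ⟨u, hu⟩ = ⟨u, hu⟩ * n.1 := by
          rw [mul_inv_eq_one, mul_inv_eq_iff_eq_mul] at h6
          exact h6
        exact congrArg Subtype.val h7
      have h2 : n.2 = 1 := by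
        apply Subtype.ext
        apply N₂.center _ n.2.2
        intro u hu
        have h3 : n * ((1 : ↥(TT Q₁)), (⟨u, hu⟩ : ↥(TT Q₂))) * n⁻¹ *
            ((1 : ↥(TT Q₁)), (⟨u, hu⟩ : ↥(TT Q₂)))⁻¹ ∈ N := by
          have h4 := hN.conj_mem n⁻¹ (N.inv_mem hn) ((1 : ↥(TT Q₁)), (⟨u, hu⟩ : ↥(TT Q₂)))
          have h5 := N.mul_mem hn h4
          have e : n * (((1 : ↥(TT Q₁)), (⟨u, hu⟩ : ↥(TT Q₂))) * n⁻¹ *
              ((1 : ↥(TT Q₁)), (⟨u, hu⟩ : ↥(TT Q₂)))⁻¹) = n * ((1 : ↥(TT Q₁)), (⟨u, hu⟩ : ↥(TT Q₂))) * n⁻¹ *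
            ((1 : ↥(TT Q₁)), (⟨u, hu⟩ : ↥(TT Q₂)))⁻¹ := by group
          rwa [e] at h5
        have e2 : n * ((1 : ↥(TT Q₁)), (⟨u, hu⟩ : ↥(TT Q₂))) * n⁻¹ *
            ((1 : ↥(TT Q₁)), (⟨u, hu⟩ : ↥(TT Q₂)))⁻¹
            = (1, n.2 * ⟨u, hu⟩ * n.2⁻¹ * (⟨u, hu⟩ : ↥(TT Q₂))⁻¹) := by
          apply Prod.ext
          · show n.1 * 1 * n.1⁻¹ * 1⁻¹ = 1
            group
          · rfl
        rw [e2] at h3
        have h6 := hb' _ h3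
        have h7 : n.2 * ⟨u, hu⟩ = ⟨u, hu⟩ * n.2 := by
          rw [mul_inv_eq_one, mul_inv_eq_iff_eq_mul] at h6
          exact h6
        exact congrArg Subtype.val h7
      have h3 : n = 1 := Prod.ext h1 h2
      rw [h3]
      exact hone
    · right
      refine ⟨(1, t), ht, fun h => ht1 (isScal_of_PM_right Q₁ Q₂ _ _ h), ?_⟩
      have h1 : t * t = 1 := Subtype.ext (N₂.scal_one _ (t * t).2 ht2)
      have h2 : ((1 : ↥(TT Q₁)), t) ^ 2 = 1 := by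
        rw [pow_two, Prod.mk_mul_mk, h1, one_mul]
        rfl
      rw [h2]
      exact hone
  · right
    refine ⟨(t, 1), ht, fun h => ht1 (isScal_of_PM_left Q₁ Q₂ _ _ h), ?_⟩
    have h1 : t * t = 1 := Subtype.ext (N₁.scal_one _ (t * t).2 ht2)
    have h2 : (t, (1 : ↥(TT Q₂))) ^ 2 = 1 := by
      rw [pow_two, Prod.mk_mul_mk, h1, one_mul]
      rfl
    rw [h2]
    exact hone

end Cfsg.Agent.Lib.Helper18BalG
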