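import Mathlib
import Cfsg.Agent.Lib.Helper18BalG

set_option autoImplicit false
set_option linter.unusedSectionVars false

/-! Local balance: the model theorem for the involution `1 ⊥ -1`, part 2 (helper18). -/

namespace Cfsg.Agent.Lib.Helper18BalH

open Cfsg Matrix Module
open scoped MatrixGroups
open Cfsg.Agent.Lib.Helper49Orth Cfsg.Agent.Lib.Helper49Center Cfsg.Agent.Lib.Helper49Eich
  Cfsg.Agent.Lib.Helper49EichGen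
  Cfsg.Agent.Lib.Helper51OrthAut Cfsg.Agent.Lib.Helper51OrthIdx Cfsg.Agent.Lib.Helper51OrthIdx2
  Cfsg.Agent.Lib.Helper18GamA Cfsg.Agent.Lib.Helper18GamB
  Cfsg.Agent.Lib.Helper18BalA Cfsg.Agent.Lib.Helper18BalB Cfsg.Agent.Lib.Helper18BalC
  Cfsg.Agent.Lib.Helper18BalD Cfsg.Agent.Lib.Helper18BalE Cfsg.Agent.Lib.Helper18BalF
  Cfsg.Agent.Lib.Helper18BalG Cfsg.Agent.Lib.Helper42LBDefs

variable {F : Type*} [Field F]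
variable {κ₁ κ₂ : Type} [Fintype κ₁] [DecidableEq κ₁] [Fintype κ₂] [DecidableEq κ₂]
variable (Q₁ : QuadraticForm F (κ₁ → F)) (Q₂ : QuadraticForm F (κ₂ → F))

/-- additive versions of the embeddings and projections -/
def ilH : (κ₁ → F) →+ (κ₁ ⊕ κ₂ → F) := AddMonoidHom.mk' il il_add
def irH : (κ₂ → F) →+ (κ₁ ⊕ κ₂ → F) := AddMonoidHom.mk' ir ir_add
def plH : (κ₁ ⊕ κ₂ → F) →+ (κ₁ → F) := AddMonoidHom.mk' (fun z => z ∘ Sum.inl) (fun _ _ => rfl)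
def prH : (κ₁ ⊕ κ₂ → F) →+ (κ₂ → F) := AddMonoidHom.mk' (fun z => z ∘ Sum.inr) (fun _ _ => rfl)

theorem act_zero {ι : Type} [Fintype ι] [DecidableEq ι] (X : GamL ι F) : act X 0 = 0 :=
  (actHom X).map_zero

theorem act_injective {ι : Type} [Fintype ι] [DecidableEq ι] (X : GamL ι F) {v : ι → F}
    (h : act X v = 0) : v = 0 := by
  rw [← act_inv_act X v, h, act_zero]

theorem bd_left_il (s : ↥(isometryGroup F ⇑Q₁)) (x : κ₁ → F) :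
    (((bdO Q₁ Q₂ (s, 1) : ↥(isometryGroup F ⇑(Qsum Q₁ Q₂))) : GL (κ₁ ⊕ κ₂) F) :
      Matrix (κ₁ ⊕ κ₂) (κ₁ ⊕ κ₂) F) *ᵥ il x = il (((s : GL κ₁ F) : Matrix κ₁ κ₁ F) *ᵥ x) := by
  rw [bdO_mulVec]
  funext k
  rcases k with k | k <;> simp [il]

theorem bd_left_ir (s : ↥(isometryGroup F ⇑Q₁)) (x : κ₂ → F) :
    (((bdO Q₁ Q₂ (s, 1) : ↥(isometryGroup F ⇑(Qsum Q₁ Q₂))) : GL (κ₁ ⊕ κ₂) F) :
      Matrix (κ₁ ⊕ κ₂) (κ₁ ⊕ κ₂) F) *ᵥ ir x = ir x := by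
  rw [bdO_mulVec]
  funext k
  rcases k with k | k <;> simp [ir]

theorem bd_right_ir (s : ↥(isometryGroup F ⇑Q₂)) (x : κ₂ → F) :
    (((bdO Q₁ Q₂ (1, s) : ↥(isometryGroup F ⇑(Qsum Q₁ Q₂))) : GL (κ₁ ⊕ κ₂) F) :
      Matrix (κ₁ ⊕ κ₂) (κ₁ ⊕ κ₂) F) *ᵥ ir x = ir (((s : GL κ₂ F) : Matrix κ₂ κ₂ F) *ᵥ x) := by
  rw [bdO_mulVec]
  funext k
  rcases k with k | k <;> simp [ir]

theorem bd_left_inl (s : ↥(isometryGroup F ⇑Q₁)) (z : κ₁ ⊕ κ₂ → F) :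
    ((((bdO Q₁ Q₂ (s, 1) : ↥(isometryGroup F ⇑(Qsum Q₁ Q₂))) : GL (κ₁ ⊕ κ₂) F) :
      Matrix (κ₁ ⊕ κ₂) (κ₁ ⊕ κ₂) F) *ᵥ z) ∘ Sum.inl
      = ((s : GL κ₁ F) : Matrix κ₁ κ₁ F) *ᵥ (z ∘ Sum.inl) := by
  rw [bdO_mulVec, Sum.elim_comp_inl]

theorem bd_left_inr (s : ↥(isometryGroup F ⇑Q₁)) (z : κ₁ ⊕ κ₂ → F) :
    ((((bdO Q₁ Q₂ (s, 1) : ↥(isometryGroup F ⇑(Qsum Q₁ Q₂))) : GL (κ₁ ⊕ κ₂) F) :
      Matrix (κ₁ ⊕ κ₂) (κ₁ ⊕ κ₂) F) *ᵥ z) ∘ Sum.inr = z ∘ Sum.inr := by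
  rw [bdO_mulVec, Sum.elim_comp_inr]
  simp

theorem bd_right_inr (s : ↥(isometryGroup F ⇑Q₂)) (z : κ₁ ⊕ κ₂ → F) :
    ((((bdO Q₁ Q₂ (1, s) : ↥(isometryGroup F ⇑(Qsum Q₁ Q₂))) : GL (κ₁ ⊕ κ₂) F) :
      Matrix (κ₁ ⊕ κ₂) (κ₁ ⊕ κ₂) F) *ᵥ z) ∘ Sum.inr
      = ((s : GL κ₂ F) : Matrix κ₂ κ₂ F) *ᵥ (z ∘ Sum.inr) := by
  rw [bdO_mulVec, Sum.elim_comp_inr]

theorem cj_left (h2 : (2 : F) ≠ 0) (X : GamL (κ₁ ⊕ κ₂) F)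
    (hX : ∀ s, PM ((Lraw Q₁ Q₂ s : ↥(isometryGroup F ⇑(Qsum Q₁ Q₂))) : GL (κ₁ ⊕ κ₂) F)
      (cj X ((Lraw Q₁ Q₂ s : ↥(isometryGroup F ⇑(Qsum Q₁ Q₂))) : GL (κ₁ ⊕ κ₂) F)))
    {e w : κ₁ → F} (he : Q₁ e = 0) (hw : QuadraticMap.polar ⇑Q₁ e w = 0) :
    cj X ((bdO Q₁ Q₂ (E Q₁ e w, 1) : ↥(isometryGroup F ⇑(Qsum Q₁ Q₂))) : GL (κ₁ ⊕ κ₂) F)
      = ((bdO Q₁ Q₂ (E Q₁ e w, 1) : ↥(isometryGroup F ⇑(Qsum Q₁ Q₂))) : GL (κ₁ ⊕ κ₂) F) := by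
  obtain ⟨hw', h1⟩ := E_half h2 Q₁ he hw
  have h3 : bdO Q₁ Q₂ (E Q₁ e w, 1) = bdO Q₁ Q₂ (E Q₁ e ((2 : F)⁻¹ • w), 1) *
      bdO Q₁ Q₂ (E Q₁ e ((2 : F)⁻¹ • w), 1) := by
    rw [← map_mul, Prod.mk_mul_mk, ← h1, one_mul]
  rw [h3]
  exact cj_sq X _ (hX (⟨_, E_mem_TT Q₁ he hw'⟩, 1))

theorem cj_right (h2 : (2 : F) ≠ 0) (X : GamL (κ₁ ⊕ κ₂) F)
    (hX : ∀ s, PM ((Lraw Q₁ Q₂ s : ↥(isometryGroup F ⇑(Qsum Q₁ Q₂))) : GL (κ₁ ⊕ κ₂) F)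
      (cj X ((Lraw Q₁ Q₂ s : ↥(isometryGroup F ⇑(Qsum Q₁ Q₂))) : GL (κ₁ ⊕ κ₂) F)))
    {e w : κ₂ → F} (he : Q₂ e = 0) (hw : QuadraticMap.polar ⇑Q₂ e w = 0) :
    cj X ((bdO Q₁ Q₂ (1, E Q₂ e w) : ↥(isometryGroup F ⇑(Qsum Q₁ Q₂))) : GL (κ₁ ⊕ κ₂) F)
      = ((bdO Q₁ Q₂ (1, E Q₂ e w) : ↥(isometryGroup F ⇑(Qsum Q₁ Q₂))) : GL (κ₁ ⊕ κ₂) F) := by
  obtain ⟨hw', h1⟩ := E_half h2 Q₂ he hw
  have h3 : bdO Q₁ Q₂ (1, E Q₂ e w) = bdO Q₁ Q₂ (1, E Q₂ e ((2 : F)⁻¹ • w)) *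
      bdO Q₁ Q₂ (1, E Q₂ e ((2 : F)⁻¹ • w)) := by
    rw [← map_mul, Prod.mk_mul_mk, ← h1, one_mul]
  rw [h3]
  exact cj_sq X _ (hX (1, ⟨_, E_mem_TT Q₂ he hw'⟩))

/-- the structure of a semilinear map centralising the image -/
theorem h5A_struct [Finite F] (h2 : (2 : F) ≠ 0)
    (hQ₁ : (QuadraticMap.polarBilin Q₁).Nondegenerate) (h3 : 3 ≤ Fintype.card κ₁)
    (N₁ : Nice Q₁) (N₂ : Nice Q₂) (X : GamL (κ₁ ⊕ κ₂) F)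
    (hX : ∀ s, PM ((Lraw Q₁ Q₂ s : ↥(isometryGroup F ⇑(Qsum Q₁ Q₂))) : GL (κ₁ ⊕ κ₂) F)
      (cj X ((Lraw Q₁ Q₂ s : ↥(isometryGroup F ⇑(Qsum Q₁ Q₂))) : GL (κ₁ ⊕ κ₂) F))) :
    X.right = 1 ∧ ∃ l₁ l₂ : F, (∀ u, act X (il u) = il (l₁ • u)) ∧
      (∀ v, act X (ir v) = ir (l₂ • v)) := by
  obtain ⟨e, f, w₀, w₁, H⟩ := exists_frame hQ₁ h3
  have c1 : ∀ {e w : κ₁ → F}, Q₁ e = 0 → QuadraticMap.polar ⇑Q₁ e w = 0 → ∀ v,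
      act X ((((bdO Q₁ Q₂ (E Q₁ e w, 1) : ↥(isometryGroup F ⇑(Qsum Q₁ Q₂))) : GL (κ₁ ⊕ κ₂) F) :
        Matrix (κ₁ ⊕ κ₂) (κ₁ ⊕ κ₂) F) *ᵥ v)
      = (((bdO Q₁ Q₂ (E Q₁ e w, 1) : ↥(isometryGroup F ⇑(Qsum Q₁ Q₂))) : GL (κ₁ ⊕ κ₂) F) :
        Matrix (κ₁ ⊕ κ₂) (κ₁ ⊕ κ₂) F) *ᵥ act X v :=
    fun he hw v => act_comm X _ (cj_left Q₁ Q₂ h2 X hX he hw) v
  have c2 : ∀ {e w : κ₂ → F}, Q₂ e = 0 → QuadraticMap.polar ⇑Q₂ e w = 0 → ∀ v,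
      act X ((((bdO Q₁ Q₂ (1, E Q₂ e w) : ↥(isometryGroup F ⇑(Qsum Q₁ Q₂))) : GL (κ₁ ⊕ κ₂) F) :
        Matrix (κ₁ ⊕ κ₂) (κ₁ ⊕ κ₂) F) *ᵥ v)
      = (((bdO Q₁ Q₂ (1, E Q₂ e w) : ↥(isometryGroup F ⇑(Qsum Q₁ Q₂))) : GL (κ₁ ⊕ κ₂) F) :
        Matrix (κ₁ ⊕ κ₂) (κ₁ ⊕ κ₂) F) *ᵥ act X v :=
    fun he hw v => act_comm X _ (cj_right Q₁ Q₂ h2 X hX he hw) v
  -- the four blocks
  obtain ⟨l₁, hl₁⟩ := scalar_of_commE hQ₁ (T := plH.comp ((actHom X).comp ilH)) (by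
    intro e w he hw x
    show (act X (il _)) ∘ Sum.inl = _ *ᵥ ((act X (il x)) ∘ Sum.inl)
    rw [← bd_left_il Q₁ Q₂, c1 he hw, bd_left_inl]) H
  have hl₁' : ∀ u, (act X (il u)) ∘ Sum.inl = l₁ • u := hl₁
  have h21 : ∀ u, (act X (il u)) ∘ Sum.inr = 0 := by
    intro u
    exact eq_zero_of_invE (T := prH.comp ((actHom X).comp ilH)) (by
      intro e w he hw x
      show (act X (il _)) ∘ Sum.inr = (act X (il x)) ∘ Sum.inr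
      rw [← bd_left_il Q₁ Q₂, c1 he hw, bd_left_inr]) H u
  have h12 : ∀ v, (act X (ir v)) ∘ Sum.inl = 0 := by
    intro v
    apply eq_zero_of_fixE hQ₁ _ H
    intro e w he hw
    rw [← bd_left_inl Q₁ Q₂, ← c1 he hw, bd_left_ir]
  have hil : ∀ u, act X (il u) = il (l₁ • u) := by
    intro u
    rw [il_eq_of_inr (h21 u), hl₁']
  obtain ⟨u₀, hu₀⟩ := N₁.ns
  have hu0 : u₀ ≠ 0 := by
    rintro rfl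
    exact hu₀ (QuadraticMap.map_zero _)
  obtain ⟨k, hk⟩ : ∃ k, u₀ k ≠ 0 := by
    by_contra hcon
    push Not at hcon
    exact hu0 (funext hcon)
  have hl0 : l₁ ≠ 0 := by
    intro h
    have h4 := hil u₀
    rw [h, zero_smul] at h4
    have h5 : (il (0 : κ₁ → F) : κ₁ ⊕ κ₂ → F) = 0 := by
      funext a
      rcases a with a | a <;> simp [il]
    rw [h5] at h4
    have h6 := act_injective X h4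
    have := congrFun h6 (Sum.inl k)
    exact hk this
  have hτ : X.right = 1 := by
    ext a
    have h4 : act X (a • il u₀) = X.right a • il (l₁ • u₀) := by rw [act_smul, hil]
    rw [← il_smul, hil] at h4
    have h5 := congrFun h4 (Sum.inl k)
    simp only [il, Sum.elim_inl, Pi.smul_apply, smul_eq_mul] at h5
    have h6 : (X.right a - a) * (l₁ * u₀ k) = 0 := by linear_combination -h5
    have := (mul_eq_zero.1 h6).resolve_right (mul_ne_zero hl0 hk)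
    exact sub_eq_zero.1 this
  obtain ⟨l₂, hl₂⟩ := N₂.lin (prH.comp ((actHom X).comp irH)) (by
      intro a v
      show (act X (ir (a • v))) ∘ Sum.inr = a • ((act X (ir v)) ∘ Sum.inr)
      rw [ir_smul, act_smul, hτ]
      rfl) (by
    intro e w he hw x
    show (act X (ir _)) ∘ Sum.inr = _ *ᵥ ((act X (ir x)) ∘ Sum.inr)
    rw [← bd_right_ir Q₁ Q₂, c2 he hw, bd_right_inr])
  have hl₂' : ∀ u, (act X (ir u)) ∘ Sum.inr = l₂ • u := hl₂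
  refine ⟨hτ, l₁, l₂, hil, fun v => ?_⟩
  rw [ir_eq_of_inl (h12 v), hl₂']

theorem h5A [Fintype F] (h2 : (2 : F) ≠ 0)
    (hQ₁ : (QuadraticMap.polarBilin Q₁).Nondegenerate) (h3 : 3 ≤ Fintype.card κ₁)
    (N₁ : Nice Q₁) (N₂ : Nice Q₂) (X : ↥(GamO ⇑(Qsum Q₁ Q₂)))
    (hX : ∀ s, PM ((Lraw Q₁ Q₂ s : ↥(isometryGroup F ⇑(Qsum Q₁ Q₂))) : GL (κ₁ ⊕ κ₂) F)
      (cj (X : GamL (κ₁ ⊕ κ₂) F)
        ((Lraw Q₁ Q₂ s : ↥(isometryGroup F ⇑(Qsum Q₁ Q₂))) : GL (κ₁ ⊕ κ₂) F))) :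
    sAut ⇑(Qsum Q₁ Q₂) X ^ 2 = 1 := by
  obtain ⟨hτ, l₁, l₂, hil, hir⟩ := h5A_struct Q₁ Q₂ h2 hQ₁ h3 N₁ N₂ (X : GamL (κ₁ ⊕ κ₂) F) hX
  obtain ⟨c, hc⟩ := (mem_GamO' _).1 X.2
  obtain ⟨u₀, hu₀⟩ := N₁.ns
  obtain ⟨v₀, hv₀⟩ := N₂.ns
  have e1 : l₁ * l₁ = c := by
    have h := hc (il u₀)
    rw [hil, Q_il, Q_il, QuadraticMap.map_smul, hτ, smul_eq_mul] at h
    exact mul_right_cancel₀ hu₀ h
  have e2 : l₂ * l₂ = c := by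
    have h := hc (ir v₀)
    rw [hir, Q_ir, Q_ir, QuadraticMap.map_smul, hτ, smul_eq_mul] at h
    exact mul_right_cancel₀ hv₀ h
  rw [← map_pow]
  have hr : ((X ^ 2 : ↥(GamO ⇑(Qsum Q₁ Q₂))) : GamL (κ₁ ⊕ κ₂) F).right = 1 := by
    rw [Subgroup.coe_pow]
    have h4 : ((X : GamL (κ₁ ⊕ κ₂) F) ^ 2).right = (X : GamL (κ₁ ⊕ κ₂) F).right ^ 2 :=
      map_pow SemidirectProduct.rightHom _ 2
    rw [h4, hτ, one_pow]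
  apply sAut_eq_one_of_scalar _ c _ hr
  apply Matrix.ext_of_mulVec_single
  intro k
  have h5 : ∀ v, act ((X ^ 2 : ↥(GamO ⇑(Qsum Q₁ Q₂))) : GamL (κ₁ ⊕ κ₂) F) v = (c : F) • v := by
    intro v
    rw [Subgroup.coe_pow, pow_two, act_mul]
    conv_lhs => rw [← il_add_ir v]
    rw [act_add, hil, hir, act_add, hil, hir, smul_smul, smul_smul, e1, e2, il_smul, ir_smul,
      ← smul_add, il_add_ir]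
  have h6 := h5 (Pi.single k 1)
  unfold act at h6
  rw [hr] at h6
  rw [Matrix.smul_mulVec, Matrix.one_mulVec, ← h6]
  rfl

/-- **Model theorem A.** -/
theorem modelA [Fintype F] (h2 : (2 : F) ≠ 0)
    (hQ : (QuadraticMap.polarBilin (Qsum Q₁ Q₂)).Nondegenerate)
    (hn : 5 ≤ Fintype.card (κ₁ ⊕ κ₂)) (h3 : 3 ≤ Fintype.card κ₁)
    (N₁ : Nice Q₁) (N₂ : Nice Q₂) (hsurj : Function.Surjective (sAut ⇑(Qsum Q₁ Q₂))) :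
    Balanced 2 (sAut ⇑(Qsum Q₁ Q₂) (X0 Q₁ Q₂)) := by
  have : Fact (Nat.Prime 2) := ⟨Nat.prime_two⟩
  have hQ₁ := nondeg_left Q₁ Q₂ hQ
  constructor
  · intro A hA
    apply engine hQ hn hsurj (LA Q₁ Q₂ hQ hn) (X0 Q₁ Q₂) 2 (h2A Q₁ Q₂) (h3A Q₁ Q₂ N₁ N₂) _
      (h5A Q₁ Q₂ h2 hQ₁ h3 N₁ N₂) A hA
    intro y hy s
    have h4 := conj_mem_RR Q₁ Q₂ y (pres_or_swp Q₁ Q₂ h2 y hy) _ (Lraw_mem_RR Q₁ Q₂ s)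
    have h5 := mul_mem h4 (inv_mem (Lraw_mem_RR Q₁ Q₂ s))
    obtain ⟨t, ht⟩ := RR_le_range Q₁ Q₂ h5
    exact ⟨t, Subtype.ext ht.symm⟩
  · apply engine_fix hQ hn (LA Q₁ Q₂ hQ hn) (X0 Q₁ Q₂) 2 (h2A Q₁ Q₂) (h3A Q₁ Q₂ N₁ N₂)
    obtain ⟨e, f, w₀, w₁, H⟩ := exists_frame hQ₁ h3
    refine ⟨(⟨E Q₁ e w₀, E_mem_TT Q₁ H.he H.e0⟩, 1), fun h => ?_⟩
    have h4 := N₁.scal_one _ (E_mem_TT Q₁ H.he H.e0) (isScal_of_PM_left Q₁ Q₂ _ _ h)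
    have h5 := E_apply Q₁ H.he H.e0 f
    rw [h4] at h5
    have hfe : QuadraticMap.polar ⇑Q₁ f e = 1 := by rw [QuadraticMap.polar_comm]; exact H.hef
    rw [one_mulVec', H.f0, hfe] at h5
    have h6 := congrArg (fun z => QuadraticMap.polar ⇑Q₁ z w₁) h5
    simp only [QuadraticMap.polar_sub_left, QuadraticMap.polar_add_left,
      QuadraticMap.polar_smul_left, H.f1, H.e1, smul_eq_mul, mul_zero, add_zero, one_mul,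
      zero_sub] at h6
    exact H.h01 (neg_eq_zero.1 h6.symm)

end Cfsg.Agent.Lib.Helper18BalH
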