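import Mathlib
import Cfsg.Agent.Lib.Helper18BalH

set_option autoImplicit false
set_option linter.unusedSectionVars false

/-! Local balance: restriction of scalars from a quadratic extension (helper18). -/

namespace Cfsg.Agent.Lib.Helper18BalI

open Cfsg Matrix Module
open scoped MatrixGroups
open Cfsg.Agent.Lib.Helper49Orth Cfsg.Agent.Lib.Helper49Center Cfsg.Agent.Lib.Helper49Eich
  Cfsg.Agent.Lib.Helper49EichGen
  Cfsg.Agent.Lib.Helper51OrthAut Cfsg.Agent.Lib.Helper51OrthIdx Cfsg.Agent.Lib.Helper51OrthIdx2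
  Cfsg.Agent.Lib.Helper18GamA Cfsg.Agent.Lib.Helper18GamB
  Cfsg.Agent.Lib.Helper18BalA Cfsg.Agent.Lib.Helper18BalB Cfsg.Agent.Lib.Helper18BalC

variable {F : Type*} [Field F] {c : F}
variable {κ : Type} [Fintype κ] [DecidableEq κ]

local notation "K" => QuadraticAlgebra F c 0

/-- the identification `F^κ ⊕ F^κ = K^κ` -/
def th (v : κ ⊕ κ → F) : κ → K := fun k => ⟨v (Sum.inl k), v (Sum.inr k)⟩

/-- its inverse -/
def thi (z : κ → K) : κ ⊕ κ → F := Sum.elim (fun k => (z k).re) (fun k => (z k).im)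

@[simp] theorem th_thi (z : κ → K) : th (thi z) = z := rfl
@[simp] theorem thi_th (v : κ ⊕ κ → F) : thi (th (c := c) v) = v := by
  funext k
  rcases k with k | k <;> rfl

theorem th_add (u v : κ ⊕ κ → F) : th (c := c) (u + v) = th u + th v := rfl
theorem th_sub (u v : κ ⊕ κ → F) : th (c := c) (u - v) = th u - th v := rfl
theorem th_neg (u : κ ⊕ κ → F) : th (c := c) (-u) = -th u := rfl
theorem th_zero : th (c := c) (0 : κ ⊕ κ → F) = 0 := rfl
theorem thi_add (u v : κ → K) : thi (u + v) = thi u + thi v := by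
  funext k
  rcases k with k | k <;> rfl
theorem th_smul (a : F) (v : κ ⊕ κ → F) : th (c := c) (a • v) = a • th v := rfl
theorem thi_smul (a : F) (v : κ → K) : thi (a • v) = a • thi v := by
  funext k
  rcases k with k | k <;> rfl

theorem th_injective : Function.Injective (th (c := c) : (κ ⊕ κ → F) → (κ → K)) := by
  intro u v h
  rw [← thi_th (c := c) u, h, thi_th]

/-- `th` as a linear map -/
def thL : (κ ⊕ κ → F) →ₗ[F] (κ → K) where
  toFun := th
  map_add' := th_add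
  map_smul' := th_smul

/-- restriction of scalars for matrices -/
def Rm (M : Matrix κ κ K) : Matrix (κ ⊕ κ) (κ ⊕ κ) F :=
  fromBlocks (M.map (fun z => z.re)) (c • M.map (fun z => z.im)) (M.map (fun z => z.im))
    (M.map (fun z => z.re))

theorem re_sum {α : Type*} (s : Finset α) (f : α → K) : (∑ i ∈ s, f i).re = ∑ i ∈ s, (f i).re :=
  map_sum (QuadraticAlgebra.reₗ c 0) f s

theorem im_sum {α : Type*} (s : Finset α) (f : α → K) : (∑ i ∈ s, f i).im = ∑ i ∈ s, (f i).im :=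
  map_sum (QuadraticAlgebra.imₗ c 0) f s

theorem th_Rm (M : Matrix κ κ K) (v : κ ⊕ κ → F) : th (Rm M *ᵥ v) = M *ᵥ th v := by
  funext k
  apply QuadraticAlgebra.ext
  · show (Rm M *ᵥ v) (Sum.inl k) = ((M *ᵥ th v) k).re
    rw [Rm, fromBlocks_mulVec]
    simp only [th, Sum.elim_inl, Pi.add_apply, Matrix.mulVec, dotProduct,
      re_sum, QuadraticAlgebra.re_mul, Matrix.map_apply, Matrix.smul_apply, Function.comp_apply,
      smul_eq_mul, Finset.sum_add_distrib]
  · show (Rm M *ᵥ v) (Sum.inr k) = ((M *ᵥ th v) k).im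
    rw [Rm, fromBlocks_mulVec]
    simp only [th, Sum.elim_inr, Pi.add_apply, Matrix.mulVec, dotProduct,
      im_sum, QuadraticAlgebra.im_mul, Matrix.map_apply, Function.comp_apply,
      Finset.sum_add_distrib, zero_mul, add_zero]
    rw [add_comm]

theorem Rm_ext {A B : Matrix (κ ⊕ κ) (κ ⊕ κ) F}
    (h : ∀ v, th (c := c) (A *ᵥ v) = th (B *ᵥ v)) : A = B := by
  apply Matrix.ext_of_mulVec_single
  intro k
  exact th_injective (h _)

theorem Rm_mul (M N : Matrix κ κ K) : Rm (M * N) = Rm M * Rm N := by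
  apply Rm_ext (c := c)
  intro v
  rw [th_Rm, ← Matrix.mulVec_mulVec, ← Matrix.mulVec_mulVec, th_Rm, th_Rm]

theorem Rm_one : Rm (1 : Matrix κ κ K) = 1 := by
  apply Rm_ext (c := c)
  intro v
  rw [th_Rm, Matrix.one_mulVec, Matrix.one_mulVec]

theorem Rm_neg (M : Matrix κ κ K) : Rm (-M) = -Rm M := by
  apply Rm_ext (c := c)
  intro v
  rw [th_Rm, Matrix.neg_mulVec, Matrix.neg_mulVec, th_neg, th_Rm]

theorem Rm_injective : Function.Injective (Rm : Matrix κ κ K → Matrix (κ ⊕ κ) (κ ⊕ κ) F) := by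
  intro M N h
  ext i k
  · exact congrFun (congrFun h (Sum.inl i)) (Sum.inl k)
  · exact congrFun (congrFun h (Sum.inr i)) (Sum.inl k)

/-- restriction of scalars as a monoid homomorphism -/
def RmHom : Matrix κ κ K →* Matrix (κ ⊕ κ) (κ ⊕ κ) F where
  toFun := Rm
  map_one' := Rm_one
  map_mul' := Rm_mul

/-- restriction of scalars on `GL` -/
def RGL : GL κ K →* GL (κ ⊕ κ) F := Units.map RmHom

theorem coe_RGL (g : GL κ K) : (RGL g : Matrix (κ ⊕ κ) (κ ⊕ κ) F) = Rm (g : Matrix κ κ K) := rfl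

/-- multiplication by `ω` -/
def Jm : Matrix (κ ⊕ κ) (κ ⊕ κ) F := fromBlocks 0 (c • 1) 1 0

theorem th_Jm (v : κ ⊕ κ → F) :
    th (c := c) (Jm (c := c) *ᵥ v) = (QuadraticAlgebra.omega : K) • th v := by
  funext k
  apply QuadraticAlgebra.ext
  · simp [th, Jm, fromBlocks_mulVec, Matrix.smul_mulVec]
  · simp [th, Jm, fromBlocks_mulVec]

/-- conjugation -/
def Km : Matrix (κ ⊕ κ) (κ ⊕ κ) F := fromBlocks 1 0 0 (-1)

theorem th_Km (v : κ ⊕ κ → F) : th (c := c) (Km *ᵥ v) = fun k => star (th (c := c) v k) := by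
  funext k
  apply QuadraticAlgebra.ext
  · simp [th, Km, fromBlocks_mulVec]
  · simp [th, Km, fromBlocks_mulVec, Matrix.neg_mulVec]

section form

variable [Fact (∀ r : F, r ^ 2 ≠ c + 0 * r)]
variable (Q₁ : QuadraticForm (QuadraticAlgebra F c 0) (κ → QuadraticAlgebra F c 0))

/-- the `F`-form `re ∘ Q₁` -/
noncomputable def Qre : QuadraticForm F (κ ⊕ κ → F) :=
  (LinearMap.compQuadraticMap' (S := F) (R := K) (M := κ → K) (N := K) (P := F)
    (QuadraticAlgebra.reₗ c 0) Q₁).comp (thL (c := c))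

theorem Qre_apply (v : κ ⊕ κ → F) : Qre Q₁ v = (Q₁ (th v)).re := rfl

theorem polar_Qre (u v : κ ⊕ κ → F) :
    QuadraticMap.polar ⇑(Qre Q₁) u v = (QuadraticMap.polar ⇑Q₁ (th u) (th v)).re := by
  unfold QuadraticMap.polar
  rw [Qre_apply, Qre_apply, Qre_apply, th_add]
  rfl

/-- restriction of scalars on isometry groups -/
noncomputable def RO : ↥(isometryGroup K ⇑Q₁) →* ↥(isometryGroup F ⇑(Qre Q₁)) :=
  (RGL.comp (isometryGroup K ⇑Q₁).subtype).codRestrict _ (fun s => by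
    rw [mem_iso]
    intro v
    change Qre Q₁ (Rm ((s : GL κ K) : Matrix κ κ K) *ᵥ v) = _
    rw [Qre_apply, Qre_apply, th_Rm, iso_apply (Q := ⇑Q₁)])

theorem coe_RO (s : ↥(isometryGroup K ⇑Q₁)) :
    (((RO Q₁ s : ↥(isometryGroup F ⇑(Qre Q₁))) : GL (κ ⊕ κ) F) : Matrix (κ ⊕ κ) (κ ⊕ κ) F)
      = Rm ((s : GL κ K) : Matrix κ κ K) := rfl

theorem RO_mem_Omega {s : ↥(isometryGroup K ⇑Q₁)} (hs : s ∈ Omega K ⇑Q₁) :
    RO Q₁ s ∈ Omega F ⇑(Qre Q₁) := by
  have h1 : (commutator ↥(isometryGroup K ⇑Q₁)).map (RO Q₁) ≤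
      commutator ↥(isometryGroup F ⇑(Qre Q₁)) := by
    unfold commutator
    rw [Subgroup.map_commutator]
    exact Subgroup.commutator_mono le_top le_top
  exact h1 (Subgroup.mem_map_of_mem _ hs)

end form

end Cfsg.Agent.Lib.Helper18BalI
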