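import Mathlib
import Cfsg.Agent.Lib.Helper18BalI

set_option autoImplicit false
set_option linter.unusedSectionVars false

/-! Local balance: the similitude `ω` of a form restricted from a quadratic extension (helper18). -/

namespace Cfsg.Agent.Lib.Helper18BalJ

open Cfsg Matrix Module
open scoped MatrixGroups
open Cfsg.Agent.Lib.Helper49Orth Cfsg.Agent.Lib.Helper49Center Cfsg.Agent.Lib.Helper49Eich
  Cfsg.Agent.Lib.Helper49EichGen
  Cfsg.Agent.Lib.Helper51OrthAut Cfsg.Agent.Lib.Helper51OrthIdx Cfsg.Agent.Lib.Helper51OrthIdx2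
  Cfsg.Agent.Lib.Helper18GamA Cfsg.Agent.Lib.Helper18GamB
  Cfsg.Agent.Lib.Helper18BalA Cfsg.Agent.Lib.Helper18BalB Cfsg.Agent.Lib.Helper18BalC
  Cfsg.Agent.Lib.Helper18BalI

variable {F : Type*} [Field F] {c : F}
variable {κ : Type} [Fintype κ] [DecidableEq κ]

local notation "K" => QuadraticAlgebra F c 0

noncomputable instance fintypeK [Fintype F] : Fintype (QuadraticAlgebra F c 0) :=
  Fintype.ofEquiv _ (QuadraticAlgebra.equivProd c 0).symm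

theorem Jm_mul_Jm : (Jm (c := c) : Matrix (κ ⊕ κ) (κ ⊕ κ) F) * Jm (c := c) = c • 1 := by
  unfold Jm
  rw [fromBlocks_multiply, ← fromBlocks_one, fromBlocks_smul]
  simp

theorem c_ne_zero [hF : Fact (∀ r : F, r ^ 2 ≠ c + 0 * r)] : c ≠ 0 := by
  intro h
  apply hF.out 0
  rw [h]
  simp

/-- a matrix commuting with `ω` is `K`-linear -/
theorem comm_form (hc : c ≠ 0) (Y : Matrix (κ ⊕ κ) (κ ⊕ κ) F) (h : Jm (c := c) * Y = Y * Jm (c := c)) :
    ∃ M : Matrix κ κ K, Y = Rm M := by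
  rw [← fromBlocks_toBlocks Y] at h ⊢
  set A := Y.toBlocks₁₁
  set B := Y.toBlocks₁₂
  set C := Y.toBlocks₂₁
  set D := Y.toBlocks₂₂
  unfold Jm at h
  rw [fromBlocks_multiply, fromBlocks_multiply, fromBlocks_inj] at h
  simp only [Matrix.zero_mul, Matrix.mul_zero, zero_add, add_zero, Matrix.one_mul, Matrix.mul_one,
    Matrix.smul_mul, Matrix.mul_smul] at h
  obtain ⟨h1, -, h3, -⟩ := h
  refine ⟨Matrix.of fun i k => ⟨A i k, C i k⟩, ?_⟩
  unfold Rm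
  rw [fromBlocks_inj]
  refine ⟨rfl, h1.symm, rfl, h3.symm⟩

/-- a matrix anticommuting with `ω` is `K`-antilinear -/
theorem anti_form (hc : c ≠ 0) (Y : Matrix (κ ⊕ κ) (κ ⊕ κ) F)
    (h : Jm (c := c) * Y = -(Y * Jm (c := c))) : ∃ M : Matrix κ κ K, Y = Rm M * Km := by
  rw [← fromBlocks_toBlocks Y] at h ⊢
  set A := Y.toBlocks₁₁
  set B := Y.toBlocks₁₂
  set C := Y.toBlocks₂₁
  set D := Y.toBlocks₂₂
  unfold Jm at h
  rw [fromBlocks_multiply, fromBlocks_multiply, fromBlocks_neg, fromBlocks_inj] at h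
  simp only [Matrix.zero_mul, Matrix.mul_zero, zero_add, add_zero, Matrix.one_mul, Matrix.mul_one,
    Matrix.smul_mul, Matrix.mul_smul] at h
  obtain ⟨h1, -, h3, -⟩ := h
  refine ⟨Matrix.of fun i k => ⟨A i k, C i k⟩, ?_⟩
  unfold Rm Km
  rw [fromBlocks_multiply, fromBlocks_inj]
  simp only [Matrix.mul_zero, zero_add, add_zero, Matrix.mul_one, Matrix.mul_neg]
  refine ⟨rfl, ?_, rfl, ?_⟩
  · rw [eq_neg_iff_add_eq_zero, add_comm, ← eq_neg_iff_add_eq_zero]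
    exact h1
  · rw [eq_neg_iff_add_eq_zero, add_comm, ← eq_neg_iff_add_eq_zero]
    exact h3

section form

variable [hF : Fact (∀ r : F, r ^ 2 ≠ c + 0 * r)]
variable (Q₁ : QuadraticForm (QuadraticAlgebra F c 0) (κ → QuadraticAlgebra F c 0))

theorem Qre_Jm (v : κ ⊕ κ → F) : Qre Q₁ (Jm (c := c) *ᵥ v) = c * Qre Q₁ v := by
  rw [Qre_apply, Qre_apply, th_Jm, QuadraticMap.map_smul, QuadraticAlgebra.omega_mul_omega_eq_mk]
  simp

/-- the imaginary part of `Q₁` in terms of `Qre Q₁` -/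
theorem im_Q (v : κ ⊕ κ → F) :
    2 * c * (Q₁ (th v)).im = Qre Q₁ (v + Jm (c := c) *ᵥ v) - (1 + c) * Qre Q₁ v := by
  have h1 : th (c := c) (v + Jm (c := c) *ᵥ v)
      = ((1 : K) + QuadraticAlgebra.omega) • th (c := c) v := by
    rw [th_add, th_Jm, add_smul, one_smul]
  rw [Qre_apply, Qre_apply, h1, QuadraticMap.map_smul]
  simp only [smul_eq_mul, QuadraticAlgebra.re_mul, QuadraticAlgebra.im_mul, QuadraticAlgebra.re_add,
    QuadraticAlgebra.im_add, QuadraticAlgebra.re_sub, QuadraticAlgebra.im_sub,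
    QuadraticAlgebra.re_one, QuadraticAlgebra.im_one, QuadraticAlgebra.omega_re,
    QuadraticAlgebra.omega_im]
  ring

theorem im_Q' (v : κ ⊕ κ → F) :
    -(2 * c * (Q₁ (th v)).im) = Qre Q₁ (v - Jm (c := c) *ᵥ v) - (1 + c) * Qre Q₁ v := by
  have h1 : th (c := c) (v - Jm (c := c) *ᵥ v)
      = ((1 : K) - QuadraticAlgebra.omega) • th (c := c) v := by
    rw [th_sub, th_Jm, sub_smul, one_smul]
  rw [Qre_apply, Qre_apply, h1, QuadraticMap.map_smul]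
  simp only [smul_eq_mul, QuadraticAlgebra.re_mul, QuadraticAlgebra.im_mul, QuadraticAlgebra.re_add,
    QuadraticAlgebra.im_add, QuadraticAlgebra.re_sub, QuadraticAlgebra.im_sub,
    QuadraticAlgebra.re_one, QuadraticAlgebra.im_one, QuadraticAlgebra.omega_re,
    QuadraticAlgebra.omega_im]
  ring

/-- `ω` as an invertible matrix -/
def JGL : GL (κ ⊕ κ) F :=
  ⟨Jm (c := c), c⁻¹ • Jm (c := c), by
    rw [Matrix.mul_smul, Jm_mul_Jm, smul_smul, inv_mul_cancel₀ (c_ne_zero (c := c)), one_smul], by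
    rw [Matrix.smul_mul, Jm_mul_Jm, smul_smul, inv_mul_cancel₀ (c_ne_zero (c := c)), one_smul]⟩

theorem coe_JGL : ((JGL (c := c) : GL (κ ⊕ κ) F) : Matrix (κ ⊕ κ) (κ ⊕ κ) F) = Jm (c := c) := rfl

/-- `ω` as a similitude -/
def JG : ↥(GO (Qre Q₁)) :=
  ⟨JGL (c := c), Units.mk0 c (c_ne_zero (c := c)), fun v => Qre_Jm Q₁ v⟩

/-- the corresponding semisimilarity -/
noncomputable def X0B : ↥(GamO ⇑(Qre Q₁)) := inlO _ (JG Q₁)

theorem cj_X0B (u : GL (κ ⊕ κ) F) :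
    cj ((X0B Q₁ : ↥(GamO ⇑(Qre Q₁))) : GamL (κ ⊕ κ) F) u
      = JGL (c := c) * u * (JGL (c := c))⁻¹ := by
  rw [cj_apply]
  show JGL (c := c) * mapAut 1 u * _ = _
  rw [map_one, MulAut.one_apply]
  rfl

theorem Jm_comm_Rm (M : Matrix κ κ K) : Jm (c := c) * Rm M = Rm M * Jm (c := c) := by
  apply Rm_ext (c := c)
  intro v
  rw [← Matrix.mulVec_mulVec, ← Matrix.mulVec_mulVec, th_Jm, th_Rm, th_Rm, th_Jm,
    Matrix.mulVec_smul]

theorem h2B (s : ↥(isometryGroup K ⇑Q₁)) :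
    cj ((X0B Q₁ : ↥(GamO ⇑(Qre Q₁))) : GamL (κ ⊕ κ) F)
      ((RO Q₁ s : ↥(isometryGroup F ⇑(Qre Q₁))) : GL (κ ⊕ κ) F)
      = ((RO Q₁ s : ↥(isometryGroup F ⇑(Qre Q₁))) : GL (κ ⊕ κ) F) := by
  rw [cj_X0B, mul_inv_eq_iff_eq_mul]
  apply Units.ext
  rw [Units.val_mul, Units.val_mul, coe_JGL, coe_RO, Jm_comm_Rm]

/-- semilinear isometries of `Q₁` normalise `Ω(Q₁)`, seen over `F` -/
theorem norm_of_semi (y : ↥(isometryGroup F ⇑(Qre Q₁))) (M : Matrix κ κ K) (ρ : K ≃+* K)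
    (h1 : ∀ v, th (c := c) (((y : GL (κ ⊕ κ) F) : Matrix (κ ⊕ κ) (κ ⊕ κ) F) *ᵥ v)
      = M *ᵥ (fun k => ρ (th (c := c) v k)))
    (h2 : ∀ v, Q₁ (th (c := c) (((y : GL (κ ⊕ κ) F) : Matrix (κ ⊕ κ) (κ ⊕ κ) F) *ᵥ v))
      = ρ (Q₁ (th (c := c) v)))
    (s : ↥(isometryGroup K ⇑Q₁)) (hs : s ∈ Omega K ⇑Q₁) :
    ∃ s' ∈ Omega K ⇑Q₁, y * RO Q₁ s * y⁻¹ = RO Q₁ s' := by
  have hinj : Function.Injective M.mulVec := by
    intro z z' hz
    have e : ∀ z : κ → K, M *ᵥ z = th (c := c) (((y : GL (κ ⊕ κ) F) :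
        Matrix (κ ⊕ κ) (κ ⊕ κ) F) *ᵥ thi (fun k => ρ.symm (z k))) := by
      intro z
      rw [h1, th_thi]
      congr 1
      funext k
      simp
    change M *ᵥ z = M *ᵥ z' at hz
    rw [e, e] at hz
    have h3 := th_injective hz
    have h4 : thi (fun k => ρ.symm (z k)) = thi (fun k => ρ.symm (z' k)) := by
      have := congrArg (fun w => (((y⁻¹ : ↥(isometryGroup F ⇑(Qre Q₁))) : GL (κ ⊕ κ) F) :
        Matrix (κ ⊕ κ) (κ ⊕ κ) F) *ᵥ w) h3
      simpa only [inv_mulVec_mulVec] using this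
    have h5 := congrArg (th (c := c)) h4
    rw [th_thi, th_thi] at h5
    funext k
    exact ρ.symm.injective (congrFun h5 k)
  have hu : IsUnit M := Matrix.mulVec_injective_iff_isUnit.1 hinj
  let X : GamL κ K := ⟨hu.unit, ρ⟩
  have hact : ∀ v, act X (th (c := c) v)
      = th (c := c) (((y : GL (κ ⊕ κ) F) : Matrix (κ ⊕ κ) (κ ⊕ κ) F) *ᵥ v) := by
    intro v
    rw [h1]
    rfl
  have hX : X ∈ GamO ⇑Q₁ := by
    rw [mem_GamO']
    refine ⟨1, fun z => ?_⟩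
    rw [← th_thi z, hact, h2, Units.val_one, one_mul]
  refine ⟨_, (sOm ⇑Q₁ ⟨X, hX⟩ ⟨s, hs⟩).2, ?_⟩
  rw [mul_inv_eq_iff_eq_mul]
  apply ext_mulVec
  intro v
  rw [mul_mulVec, mul_mulVec]
  apply th_injective (c := c)
  rw [← hact, coe_RO, coe_RO, th_Rm, th_Rm, ← hact, coe_sOm, cj_act]

end form

end Cfsg.Agent.Lib.Helper18BalJ
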