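import Mathlib
import Cfsg.Agent.Lib.Helper18BalJ

set_option autoImplicit false
set_option linter.unusedSectionVars false

/-! Local balance: the model theorem for the similitude `ω` (helper18). -/

namespace Cfsg.Agent.Lib.Helper18BalK

open Cfsg Matrix Module
open scoped MatrixGroups
open Cfsg.Agent.Lib.Helper49Orth Cfsg.Agent.Lib.Helper49Center Cfsg.Agent.Lib.Helper49Eich
  Cfsg.Agent.Lib.Helper49EichGen
  Cfsg.Agent.Lib.Helper51OrthAut Cfsg.Agent.Lib.Helper51OrthIdx Cfsg.Agent.Lib.Helper51OrthIdx2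
  Cfsg.Agent.Lib.Helper18GamA Cfsg.Agent.Lib.Helper18GamB
  Cfsg.Agent.Lib.Helper18BalA Cfsg.Agent.Lib.Helper18BalB Cfsg.Agent.Lib.Helper18BalC
  Cfsg.Agent.Lib.Helper18BalE Cfsg.Agent.Lib.Helper18BalH
  Cfsg.Agent.Lib.Helper18BalI Cfsg.Agent.Lib.Helper18BalJ Cfsg.Agent.Lib.Helper42LBDefs

variable {F : Type*} [Field F] {c : F}
variable {κ : Type} [Fintype κ] [DecidableEq κ]

local notation "K" => QuadraticAlgebra F c 0

variable [hF : Fact (∀ r : F, r ^ 2 ≠ c + 0 * r)]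
variable (Q₁ : QuadraticForm (QuadraticAlgebra F c 0) (κ → QuadraticAlgebra F c 0))

theorem two_ne_zero_K (h2 : (2 : F) ≠ 0) : (2 : K) ≠ 0 := by
  intro h
  apply h2
  have h3 : (2 : K) = 1 + 1 := by norm_num
  rw [h3] at h
  have := congrArg QuadraticAlgebra.re h
  rw [QuadraticAlgebra.re_add, QuadraticAlgebra.re_one, QuadraticAlgebra.re_zero] at this
  rw [← this]
  norm_num

theorem eq_zero_of_re (ζ : K) (h : ∀ ξ : K, (ζ * ξ).re = 0) : ζ = 0 := by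
  have h1 := h 1
  have h2 := h QuadraticAlgebra.omega
  rw [mul_one] at h1
  rw [QuadraticAlgebra.re_mul, QuadraticAlgebra.omega_re, QuadraticAlgebra.omega_im, mul_zero,
    zero_add, mul_one] at h2
  apply QuadraticAlgebra.ext
  · exact h1
  · exact (mul_eq_zero.1 h2).resolve_left (c_ne_zero (c := c))

theorem nondeg_Qre (hQ₁ : (QuadraticMap.polarBilin Q₁).Nondegenerate) :
    (QuadraticMap.polarBilin (Qre Q₁)).Nondegenerate := by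
  rw [Cfsg.Agent.Lib.Helper42Quad.nondeg_iff] at hQ₁ ⊢
  intro x hx
  have h1 : th (c := c) x = 0 := by
    apply hQ₁
    intro z
    apply eq_zero_of_re
    intro ξ
    have := hx (thi (ξ • z))
    rw [polar_Qre, th_thi, QuadraticMap.polar_smul_right, smul_eq_mul, mul_comm] at this
    exact this
  apply th_injective (c := c)
  rw [h1, th_zero]

theorem thi_Rm (M : Matrix κ κ K) (z : κ → K) : thi (M *ᵥ z) = Rm M *ᵥ thi z := by
  apply th_injective (c := c)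
  rw [th_thi, th_Rm, th_thi]

theorem PM_RO_iff (s : ↥(isometryGroup K ⇑Q₁))
    (h : PM 1 ((RO Q₁ s : ↥(isometryGroup F ⇑(Qre Q₁))) : GL (κ ⊕ κ) F)) : IsScal s := by
  rcases h with h | h
  · refine ⟨1, ?_⟩
    rw [coe_RO, Units.val_one, ← Rm_one (c := c)] at h
    rw [Rm_injective h, one_smul]
  · refine ⟨-1, ?_⟩
    rw [coe_RO, Units.val_one, ← Rm_one (c := c), ← Rm_neg] at h
    rw [Rm_injective h, neg_smul, one_smul]

/-- the map to `Ω` -/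
noncomputable def LB [Fintype F] (hQ₁ : (QuadraticMap.polarBilin Q₁).Nondegenerate)
    (hn : 5 ≤ Fintype.card κ) : ↥(TT Q₁) →* ↥(Omega F ⇑(Qre Q₁)) :=
  ((RO Q₁).comp (TT Q₁).subtype).codRestrict _ (fun s => by
    apply RO_mem_Omega
    rw [Omega_eq_TT _ hQ₁ hn]
    exact s.2)

theorem coe_LB [Fintype F] (hQ₁ : (QuadraticMap.polarBilin Q₁).Nondegenerate)
    (hn : 5 ≤ Fintype.card κ) (s : ↥(TT Q₁)) :
    ((LB Q₁ hQ₁ hn s : ↥(Omega F ⇑(Qre Q₁))) : ↥(isometryGroup F ⇑(Qre Q₁))) = RO Q₁ s := rfl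

theorem h3B (h2 : (2 : F) ≠ 0) (hQ₁ : (QuadraticMap.polarBilin Q₁).Nondegenerate)
    (hodd : Odd (Fintype.card κ)) (h3 : TTH3 Q₁) (N : Subgroup ↥(TT Q₁)) (hN : N.Normal) :
    (∀ n ∈ N, PM 1 ((RO Q₁ n : ↥(isometryGroup F ⇑(Qre Q₁))) : GL (κ ⊕ κ) F)) ∨
    ∃ t ∈ N, ¬ PM 1 ((RO Q₁ t : ↥(isometryGroup F ⇑(Qre Q₁))) : GL (κ ⊕ κ) F) ∧
      PM 1 ((RO Q₁ ((t ^ 2 : ↥(TT Q₁)) : ↥(isometryGroup K ⇑Q₁)) :
        ↥(isometryGroup F ⇑(Qre Q₁))) : GL (κ ⊕ κ) F) := by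
  have hone : PM 1 ((RO Q₁ 1 : ↥(isometryGroup F ⇑(Qre Q₁))) : GL (κ ⊕ κ) F) := by
    rw [map_one]
    exact Or.inl rfl
  rcases h3 N hN with h | ⟨t, ht, h4, h5⟩
  · left
    intro n hn
    rw [scal_eq_one (two_ne_zero_K h2) Q₁ hQ₁ hodd _ n.2 (h n hn)]
    exact hone
  · right
    refine ⟨t, ht, fun h => h4 (PM_RO_iff Q₁ _ h), ?_⟩
    rw [pow_two, scal_eq_one (two_ne_zero_K h2) Q₁ hQ₁ hodd _ (t * t).2 h5]
    exact hone

theorem Q_eq_of_comm (h2 : (2 : F) ≠ 0) (y : ↥(isometryGroup F ⇑(Qre Q₁)))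
    (h : Jm (c := c) * ((y : GL (κ ⊕ κ) F) : Matrix (κ ⊕ κ) (κ ⊕ κ) F)
      = ((y : GL (κ ⊕ κ) F) : Matrix (κ ⊕ κ) (κ ⊕ κ) F) * Jm (c := c)) (v : κ ⊕ κ → F) :
    Q₁ (th (c := c) (((y : GL (κ ⊕ κ) F) : Matrix (κ ⊕ κ) (κ ⊕ κ) F) *ᵥ v))
      = Q₁ (th (c := c) v) := by
  apply QuadraticAlgebra.ext
  · have := iso_apply (Q := ⇑(Qre Q₁)) y v
    rwa [Qre_apply, Qre_apply] at this
  · have h3 := im_Q Q₁ (((y : GL (κ ⊕ κ) F) : Matrix (κ ⊕ κ) (κ ⊕ κ) F) *ᵥ v)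
    rw [Matrix.mulVec_mulVec, h, ← Matrix.mulVec_mulVec, ← Matrix.mulVec_add,
      iso_apply (Q := ⇑(Qre Q₁)) y, iso_apply (Q := ⇑(Qre Q₁)) y, ← im_Q] at h3
    exact mul_left_cancel₀ (mul_ne_zero h2 (c_ne_zero (c := c))) h3

theorem Q_eq_of_anti (h2 : (2 : F) ≠ 0) (y : ↥(isometryGroup F ⇑(Qre Q₁)))
    (h : Jm (c := c) * ((y : GL (κ ⊕ κ) F) : Matrix (κ ⊕ κ) (κ ⊕ κ) F)
      = -(((y : GL (κ ⊕ κ) F) : Matrix (κ ⊕ κ) (κ ⊕ κ) F) * Jm (c := c))) (v : κ ⊕ κ → F) :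
    Q₁ (th (c := c) (((y : GL (κ ⊕ κ) F) : Matrix (κ ⊕ κ) (κ ⊕ κ) F) *ᵥ v))
      = star (Q₁ (th (c := c) v)) := by
  apply QuadraticAlgebra.ext
  · have := iso_apply (Q := ⇑(Qre Q₁)) y v
    rw [Qre_apply, Qre_apply] at this
    rw [this]
    simp
  · have h3 := im_Q Q₁ (((y : GL (κ ⊕ κ) F) : Matrix (κ ⊕ κ) (κ ⊕ κ) F) *ᵥ v)
    rw [Matrix.mulVec_mulVec, h, Matrix.neg_mulVec, ← Matrix.mulVec_mulVec, ← sub_eq_add_neg,
      ← Matrix.mulVec_sub,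
      iso_apply (Q := ⇑(Qre Q₁)) y, iso_apply (Q := ⇑(Qre Q₁)) y, ← im_Q'] at h3
    have h4 : (star (Q₁ (th (c := c) v))).im = -(Q₁ (th (c := c) v)).im := by simp
    rw [h4]
    apply mul_left_cancel₀ (mul_ne_zero h2 (c_ne_zero (c := c)))
    rw [h3]
    ring

theorem h4B (h2 : (2 : F) ≠ 0) (y : ↥(isometryGroup F ⇑(Qre Q₁)))
    (hy : PM (y : GL (κ ⊕ κ) F)
      (cj ((X0B Q₁ : ↥(GamO ⇑(Qre Q₁))) : GamL (κ ⊕ κ) F) (y : GL (κ ⊕ κ) F)))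
    (s : ↥(isometryGroup K ⇑Q₁)) (hs : s ∈ Omega K ⇑Q₁) :
    ∃ s' ∈ Omega K ⇑Q₁, y * RO Q₁ s * y⁻¹ = RO Q₁ s' := by
  rw [cj_X0B] at hy
  set Y := ((y : GL (κ ⊕ κ) F) : Matrix (κ ⊕ κ) (κ ⊕ κ) F) with hY
  have e : ((JGL (c := c) * (y : GL (κ ⊕ κ) F) * (JGL (c := c))⁻¹ : GL (κ ⊕ κ) F) :
      Matrix (κ ⊕ κ) (κ ⊕ κ) F) * Jm (c := c) = Jm (c := c) * Y := by
    rw [← coe_JGL, ← Units.val_mul, inv_mul_cancel_right, Units.val_mul]
  rcases hy with hy | hy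
  · rw [hy] at e
    obtain ⟨M, hM⟩ := comm_form (c_ne_zero (c := c)) Y e.symm
    apply norm_of_semi Q₁ y M (RingEquiv.refl _) _ _ s hs
    · intro v
      rw [← hY, hM, th_Rm]
      rfl
    · intro v
      rw [Q_eq_of_comm Q₁ h2 y e.symm]
      rfl
  · rw [hy, Matrix.neg_mul] at e
    obtain ⟨M, hM⟩ := anti_form (c_ne_zero (c := c)) Y e.symm
    apply norm_of_semi Q₁ y M (starRingAut) _ _ s hs
    · intro v
      rw [← hY, hM, ← Matrix.mulVec_mulVec, th_Rm, th_Km]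
      rfl
    · intro v
      rw [Q_eq_of_anti Q₁ h2 y e.symm]
      rfl

/-- the semilinear map transported to `K^κ` -/
def tw (X : GamL (κ ⊕ κ) F) : (κ → K) →+ (κ → K) where
  toFun z := th (c := c) (act X (thi z))
  map_zero' := by
    have : thi (0 : κ → K) = 0 := by
      apply th_injective (c := c)
      rw [th_thi, th_zero]
    rw [this, act_zero, th_zero]
  map_add' u v := by rw [thi_add, act_add, th_add]

theorem tw_apply (X : GamL (κ ⊕ κ) F) (z : κ → K) :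
    tw (c := c) X z = th (c := c) (act X (thi z)) := rfl

theorem cj_RO_E (h2 : (2 : F) ≠ 0) (X : GamL (κ ⊕ κ) F)
    (hX : ∀ s : ↥(TT Q₁), PM ((RO Q₁ s : ↥(isometryGroup F ⇑(Qre Q₁))) : GL (κ ⊕ κ) F)
      (cj X ((RO Q₁ s : ↥(isometryGroup F ⇑(Qre Q₁))) : GL (κ ⊕ κ) F)))
    {e w : κ → K} (he : Q₁ e = 0) (hw : QuadraticMap.polar ⇑Q₁ e w = 0) :
    cj X ((RO Q₁ (E Q₁ e w) : ↥(isometryGroup F ⇑(Qre Q₁))) : GL (κ ⊕ κ) F)
      = ((RO Q₁ (E Q₁ e w) : ↥(isometryGroup F ⇑(Qre Q₁))) : GL (κ ⊕ κ) F) := by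
  obtain ⟨hw', h1⟩ := E_half (two_ne_zero_K h2) Q₁ he hw
  rw [h1, map_mul]
  exact cj_sq X _ (hX ⟨_, E_mem_TT Q₁ he hw'⟩)

theorem h5B_struct [Finite F] (h2 : (2 : F) ≠ 0)
    (hQ₁ : (QuadraticMap.polarBilin Q₁).Nondegenerate) (h3 : 3 ≤ Fintype.card κ)
    (X : GamL (κ ⊕ κ) F)
    (hX : ∀ s : ↥(TT Q₁), PM ((RO Q₁ s : ↥(isometryGroup F ⇑(Qre Q₁))) : GL (κ ⊕ κ) F)
      (cj X ((RO Q₁ s : ↥(isometryGroup F ⇑(Qre Q₁))) : GL (κ ⊕ κ) F))) :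
    X.right = 1 ∧ ∃ l : K, ∀ v, th (c := c) (act X v) = l • th (c := c) v := by
  have : Finite K := Finite.of_equiv _ (QuadraticAlgebra.equivProd c 0).symm
  obtain ⟨l, hl⟩ := scalar_of_commE' hQ₁ h3 (T := tw (c := c) X) (by
    intro e w he hw z
    rw [tw_apply, tw_apply, thi_Rm, ← coe_RO, act_comm X _ (cj_RO_E Q₁ h2 X hX he hw), coe_RO,
      th_Rm])
  have hl' : ∀ v, th (c := c) (act X v) = l • th (c := c) v := by
    intro v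
    have := hl (th (c := c) v)
    rwa [tw_apply, thi_th] at this
  refine ⟨?_, l, hl'⟩
  have : Nonempty κ := by
    rw [← Fintype.card_pos_iff]
    omega
  obtain ⟨k⟩ : Nonempty κ := inferInstance
  set v₀ : κ ⊕ κ → F := Pi.single (Sum.inl k) 1 with hv₀
  have hv0 : v₀ ≠ 0 := by
    intro h
    have := congrFun h (Sum.inl k)
    simp [hv₀] at this
  have hne : act X v₀ ≠ 0 := fun h => hv0 (act_injective X h)
  obtain ⟨j, hj⟩ : ∃ j, act X v₀ j ≠ 0 := by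
    by_contra hcon
    push Not at hcon
    exact hne (funext hcon)
  ext a
  have h4 : th (c := c) (act X (a • v₀)) = th (c := c) (a • act X v₀) := by
    rw [hl', th_smul, th_smul, hl', smul_comm]
  have h5 := th_injective h4
  rw [act_smul] at h5
  have h6 := congrFun h5 j
  simp only [Pi.smul_apply, smul_eq_mul] at h6
  exact mul_right_cancel₀ hj h6

theorem h5B [Fintype F] (h2 : (2 : F) ≠ 0)
    (hQ₁ : (QuadraticMap.polarBilin Q₁).Nondegenerate) (h3 : 3 ≤ Fintype.card κ)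
    (X : ↥(GamO ⇑(Qre Q₁)))
    (hX : ∀ s : ↥(TT Q₁), PM ((RO Q₁ s : ↥(isometryGroup F ⇑(Qre Q₁))) : GL (κ ⊕ κ) F)
      (cj (X : GamL (κ ⊕ κ) F) ((RO Q₁ s : ↥(isometryGroup F ⇑(Qre Q₁))) : GL (κ ⊕ κ) F))) :
    sAut ⇑(Qre Q₁) X ^ 2 = 1 := by
  obtain ⟨hτ, l, hl⟩ := h5B_struct Q₁ h2 hQ₁ h3 (X : GamL (κ ⊕ κ) F) hX
  obtain ⟨μ, hμ⟩ := (mem_GamO' _).1 X.2
  obtain ⟨e, f, w₀, w₁, H⟩ := exists_frame hQ₁ h3
  have hpol : ∀ u v, QuadraticMap.polar ⇑(Qre Q₁) (act (X : GamL (κ ⊕ κ) F) u)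
      (act (X : GamL (κ ⊕ κ) F) v) = μ * QuadraticMap.polar ⇑(Qre Q₁) u v := by
    intro u v
    unfold QuadraticMap.polar
    rw [← act_add, hμ, hμ, hμ, hτ]
    simp only [RingAut.one_apply]
    ring
  have hre : ∀ ξ : K, (l * l * ξ).re = μ * ξ.re := by
    intro ξ
    have h4 := hpol (thi (ξ • e)) (thi f)
    rw [polar_Qre, polar_Qre, hl, hl, th_thi, th_thi, QuadraticMap.polar_smul_left,
      QuadraticMap.polar_smul_right, QuadraticMap.polar_smul_left, H.hef, smul_eq_mul, smul_eq_mul,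
      smul_eq_mul, mul_one] at h4
    rw [← h4]
    congr 1
    ring
  have hll : l * l = algebraMap F K μ := by
    have h4 : l * l - algebraMap F K μ = 0 := by
      apply eq_zero_of_re
      intro ξ
      rw [sub_mul, QuadraticAlgebra.re_sub, hre, ← Algebra.smul_def, QuadraticAlgebra.re_smul,
        smul_eq_mul, sub_self]
    exact sub_eq_zero.1 h4
  rw [← map_pow]
  have hr : ((X ^ 2 : ↥(GamO ⇑(Qre Q₁))) : GamL (κ ⊕ κ) F).right = 1 := by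
    rw [Subgroup.coe_pow]
    have h4 : ((X : GamL (κ ⊕ κ) F) ^ 2).right = (X : GamL (κ ⊕ κ) F).right ^ 2 :=
      map_pow SemidirectProduct.rightHom _ 2
    rw [h4, hτ, one_pow]
  apply sAut_eq_one_of_scalar _ μ _ hr
  apply Matrix.ext_of_mulVec_single
  intro k
  have h5 : ∀ v, act ((X ^ 2 : ↥(GamO ⇑(Qre Q₁))) : GamL (κ ⊕ κ) F) v = (μ : F) • v := by
    intro v
    rw [Subgroup.coe_pow, pow_two, act_mul]
    apply th_injective (c := c)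
    rw [hl, hl, smul_smul, hll, th_smul, algebraMap_smul]
  have h6 := h5 (Pi.single k 1)
  unfold act at h6
  rw [hr] at h6
  rw [Matrix.smul_mulVec, Matrix.one_mulVec, ← h6]
  rfl

/-- **Model theorem B.** -/
theorem modelB [Fintype F] (h2 : (2 : F) ≠ 0)
    (hQ₁ : (QuadraticMap.polarBilin Q₁).Nondegenerate)
    (hn : 5 ≤ Fintype.card κ) (hodd : Odd (Fintype.card κ)) (h3 : TTH3 Q₁)
    (hsurj : Function.Surjective (sAut ⇑(Qre Q₁))) :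
    Balanced 2 (sAut ⇑(Qre Q₁) (X0B Q₁)) := by
  have : Fact (Nat.Prime 2) := ⟨Nat.prime_two⟩
  have hQ := nondeg_Qre Q₁ hQ₁
  have hn' : 5 ≤ Fintype.card (κ ⊕ κ) := by
    rw [Fintype.card_sum]
    omega
  constructor
  · intro A hA
    apply engine hQ hn' hsurj (LB Q₁ hQ₁ hn) (X0B Q₁) 2 (fun s => h2B Q₁ _)
      (h3B Q₁ h2 hQ₁ hodd h3) _ (h5B Q₁ h2 hQ₁ (by omega)) A hA
    intro y hy s
    have hs : (s : ↥(isometryGroup K ⇑Q₁)) ∈ Omega K ⇑Q₁ := by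
      rw [Omega_eq_TT _ hQ₁ hn]
      exact s.2
    obtain ⟨s', hs', h4⟩ := h4B Q₁ h2 y hy s hs
    rw [Omega_eq_TT _ hQ₁ hn] at hs'
    refine ⟨⟨s', hs'⟩ * s⁻¹, ?_⟩
    apply Subtype.ext
    rw [map_mul, map_inv]
    show (y : ↥(isometryGroup F ⇑(Qre Q₁))) * RO Q₁ s * (y : ↥(isometryGroup F ⇑(Qre Q₁)))⁻¹ *
      (RO Q₁ s)⁻¹ = RO Q₁ s' * (RO Q₁ s)⁻¹
    rw [h4]
  · apply engine_fix hQ hn' (LB Q₁ hQ₁ hn) (X0B Q₁) 2 (fun s => h2B Q₁ _)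
      (h3B Q₁ h2 hQ₁ hodd h3)
    obtain ⟨e, f, w₀, w₁, H⟩ := exists_frame hQ₁ (by omega : 3 ≤ Fintype.card κ)
    refine ⟨⟨E Q₁ e w₀, E_mem_TT Q₁ H.he H.e0⟩, fun h => ?_⟩
    have h4 := scal_eq_one (two_ne_zero_K h2) Q₁ hQ₁ hodd _ (E_mem_TT Q₁ H.he H.e0)
      (PM_RO_iff Q₁ _ h)
    have h5 := E_apply Q₁ H.he H.e0 f
    rw [h4] at h5
    have hfe : QuadraticMap.polar ⇑Q₁ f e = 1 := by rw [QuadraticMap.polar_comm]; exact H.hef
    rw [one_mulVec', H.f0, hfe] at h5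
    have h6 := congrArg (fun z => QuadraticMap.polar ⇑Q₁ z w₁) h5
    simp only [QuadraticMap.polar_sub_left, QuadraticMap.polar_add_left,
      QuadraticMap.polar_smul_left, H.f1, H.e1, smul_eq_mul, mul_zero, add_zero, one_mul,
      zero_sub] at h6
    exact H.h01 (neg_eq_zero.1 h6.symm)

end Cfsg.Agent.Lib.Helper18BalK
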