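import Mathlib
import Cfsg.Agent.Lib.Helper18RecA

/-!
# Standard frames as linear equivalences; rectangular matrices
-/

set_option autoImplicit false
set_option linter.unusedSectionVars false

namespace Cfsg.Agent.Lib.Helper18GfA

open Cfsg Matrix Module
open scoped MatrixGroups
open Cfsg.Agent.Lib.Helper49Orth Cfsg.Agent.Lib.Helper49Forms Cfsg.Agent.Lib.Helper49Disc
  Cfsg.Agent.Lib.Helper49Gram
  Cfsg.Agent.Lib.Helper18GamD Cfsg.Agent.Lib.Helper18GamE
  Cfsg.Agent.Lib.Helper18LangA Cfsg.Agent.Lib.Helper18LangB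
  Cfsg.Agent.Lib.Helper42Quad

variable {F : Type*} [Field F] {V : Type*} [AddCommGroup V] [Module F V] [FiniteDimensional F V]

theorem polar_comp_equiv {W : Type*} [AddCommGroup W] [Module F W] (Q' : QuadraticForm F V)
    (L : W ≃ₗ[F] V) (u v : W) :
    QuadraticMap.polar ⇑(Q'.comp L.toLinearMap) u v = QuadraticMap.polar ⇑Q' (L u) (L v) := by
  simp [QuadraticMap.polar]

/-- An elliptic standard frame gives an isometry with a standard minus type form. -/
theorem exists_equiv_elliptic (m : ℕ) (hV : finrank F V = 2 * m + 2) (Q' : QuadraticForm F V)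
    (e f : Fin m → V) (x y : V)
    (h : Hyp Q' e f) (hx : Perp Q' e f x) (hy : Perp Q' e f y) (hx1 : Q' x = 1)
    (hxy : QuadraticMap.polar ⇑Q' x y = 1) (ht : ∀ t : F, t ^ 2 + t + Q' y ≠ 0) :
    ∃ L : ((Fin m ⊕ Fin m) ⊕ Fin 2 → F) ≃ₗ[F] V, ∀ v, Q' (L v) = QMinus m F 1 (Q' y) v := by
  have hperp : ∀ j, Perp Q' e f (![x, y] j) := fun j => by
    fin_cases j
    · exact hx
    · exact hy
  obtain ⟨b, hb1, hb2, hb3⟩ := exists_basis_sum Q' e f h ![x, y] hperp
    (li_pair Q' x y hx1 hxy ht) (by simp [hV])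
  have hP : ∀ i, b.equivFun.symm (Pi.single i 1) = b i := by
    intro i
    simp
  obtain ⟨k1, k2, k3, k4, k5⟩ := h
  have hb30 : b (Sum.inr 0) = x := hb3 0
  have hb31 : b (Sum.inr 1) = y := hb3 1
  have hyx : QuadraticMap.polar ⇑Q' y x = 1 := by rw [QuadraticMap.polar_comm]; exact hxy
  have key : Q'.comp b.equivFun.symm.toLinearMap = QMinus m F 1 (Q' y) := by
    apply ext_of_basis (Pi.basisFun F _)
    · intro i
      rw [Pi.basisFun_apply, QuadraticMap.comp_apply, LinearEquiv.coe_coe, hP, QMinus_single]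
      rcases i with (i | i) | i
      · rw [hb1, k1]; rfl
      · rw [hb2, k2]; rfl
      · fin_cases i
        · exact (congrArg Q' hb30).trans hx1
        · exact congrArg Q' hb31
    · intro i k
      rw [polar_comp_equiv, Pi.basisFun_apply, Pi.basisFun_apply, hP, hP, polar_QMinus_single]
      rcases i with (i | i) | i <;> rcases k with (k | k) | k
      · simp [hb1, k4]
      · simp [hb1, hb2, k3, Matrix.one_apply]
      · rw [hb1, hb3]; simp [(hperp k i).1]
      · rw [hb2, hb1, QuadraticMap.polar_comm, k3]; simp [Matrix.one_apply, eq_comm]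
      · simp [hb2, k5]
      · rw [hb2, hb3]; simp [(hperp k i).2]
      · rw [hb1, hb3, QuadraticMap.polar_comm]; simp [(hperp i k).1]
      · rw [hb2, hb3, QuadraticMap.polar_comm]; simp [(hperp i k).2]
      · fin_cases i <;> fin_cases k
        · simp [hb30, QuadraticMap.polar_self, hx1]
        · simp [hb30, hb31, hxy]
        · simp [hb30, hb31, hyx]
        · simp [hb31, QuadraticMap.polar_self]
  refine ⟨b.equivFun.symm, fun v => ?_⟩
  have := congrArg (fun q : QuadraticForm F _ => q v) key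
  exact this

theorem QPlus_single (m : ℕ) (i : Fin m ⊕ Fin m) : QPlus m F (Pi.single i 1) = 0 := by
  rcases i with i | i
  · have := (hypPair_QPlus (F := F) m i).Q_st 1 0
    simpa using this
  · have := (hypPair_QPlus (F := F) m i).Q_st 0 1
    simpa using this

theorem polar_QPlus_single (m : ℕ) (i k : Fin m ⊕ Fin m) :
    QuadraticMap.polar ⇑(QPlus m F) (Pi.single i 1) (Pi.single k 1) =
      (Matrix.fromBlocks (0 : Matrix (Fin m) (Fin m) F) 1 1 0) i k := by
  rw [← gram_QPlus]
  rfl

/-- A hyperbolic standard frame gives an isometry with the standard plus type form. -/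
theorem exists_equiv_hyperbolic (m : ℕ) (hV : finrank F V = 2 * m) (Q' : QuadraticForm F V)
    (e f : Fin m → V) (h : Hyp Q' e f) :
    ∃ L : (Fin m ⊕ Fin m → F) ≃ₗ[F] V, ∀ v, Q' (L v) = QPlus m F v := by
  obtain ⟨b0, hb1', hb2', -⟩ := exists_basis_sum Q' e f h
      (fun i : Fin 0 => i.elim0) (fun i => i.elim0) (linearIndependent_empty_type)
      (by simp [hV])
  let b := b0.reindex (Equiv.sumEmpty (Fin m ⊕ Fin m) (Fin 0))
  have hb1 : ∀ i, b (Sum.inl i) = e i := by
    intro i
    rw [← hb1']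
    simp [b]
  have hb2 : ∀ i, b (Sum.inr i) = f i := by
    intro i
    rw [← hb2']
    simp [b]
  have hP : ∀ i, b.equivFun.symm (Pi.single i 1) = b i := by
    intro i
    simp
  obtain ⟨k1, k2, k3, k4, k5⟩ := h
  have key : Q'.comp b.equivFun.symm.toLinearMap = QPlus m F := by
    apply ext_of_basis (Pi.basisFun F _)
    · intro i
      rw [Pi.basisFun_apply, QuadraticMap.comp_apply, LinearEquiv.coe_coe, hP, QPlus_single]
      rcases i with i | i
      · rw [hb1, k1]
      · rw [hb2, k2]
    · intro i k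
      rw [polar_comp_equiv, Pi.basisFun_apply, Pi.basisFun_apply, hP, hP, polar_QPlus_single]
      rcases i with i | i <;> rcases k with k | k
      · simp [hb1, k4]
      · simp [hb1, hb2, k3, Matrix.one_apply]
      · rw [hb2, hb1, QuadraticMap.polar_comm, k3]; simp [Matrix.one_apply, eq_comm]
      · simp [hb2, k5]
  refine ⟨b.equivFun.symm, fun v => ?_⟩
  have := congrArg (fun q : QuadraticForm F _ => q v) key
  exact this

/-- Matrices of a linear equivalence between coordinate spaces. -/
theorem exists_matrix_of_equiv {ι ι' : Type} [Fintype ι] [DecidableEq ι] [Fintype ι']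
    [DecidableEq ι'] (L : (ι' → F) ≃ₗ[F] (ι → F)) :
    ∃ (P : Matrix ι ι' F) (P' : Matrix ι' ι F), P * P' = 1 ∧ P' * P = 1 ∧ ∀ v, P *ᵥ v = L v := by
  refine ⟨LinearMap.toMatrix' L.toLinearMap, LinearMap.toMatrix' L.symm.toLinearMap, ?_, ?_, ?_⟩
  · rw [← LinearMap.toMatrix'_comp]
    simp
  · rw [← LinearMap.toMatrix'_comp]
    simp
  · intro v
    rw [LinearMap.toMatrix'_mulVec]
    rfl

theorem exists_beta [Finite F] : ∃ β : F, ∀ t : F, t ^ 2 + t + β ≠ 0 := by
  have hni : ¬ Function.Injective (fun t : F => t ^ 2 + t) := by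
    intro h
    have := h (a₁ := 0) (a₂ := -1) (by simp)
    exact one_ne_zero (neg_eq_zero.1 this.symm)
  have hns : ¬ Function.Surjective (fun t : F => t ^ 2 + t) :=
    fun h => hni (Finite.injective_iff_surjective.2 h)
  rw [Function.Surjective] at hns
  push Not at hns
  obtain ⟨b, hb⟩ := hns
  refine ⟨-b, fun t h => hb t ?_⟩
  change t ^ 2 + t = b
  linear_combination h

end Cfsg.Agent.Lib.Helper18GfA
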