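import Mathlib
import Cfsg.Prelude
import Cfsg.Agent.Lib.Helper42LBDefs
import Cfsg.Agent.Lib.Helper49Geo
import Cfsg.Agent.Lib.Helper49Center

set_option autoImplicit false
set_option linter.unusedSectionVars false
set_option linter.unusedSimpArgs false

/-! PROJECT 42, piece O5. -/

namespace Cfsg.Agent.Lib.Helper40LBO5

open Matrix Cfsg Module Cfsg.Agent.Lib.Helper49EichGen Cfsg.Agent.Lib.Helper42LBDefs
  Cfsg.Agent.Lib.Helper49Geo Cfsg.Agent.Lib.Helper49Orth Cfsg.Agent.Lib.Helper49Hyp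
  Cfsg.Agent.Lib.Helper49Eich Cfsg.Agent.Lib.Helper49Center

section main
variable {F : Type*} [Field F]
variable {ι : Type} [Fintype ι] [DecidableEq ι] (Q : QuadraticForm F (ι → F))

local notation "𝐁" => QuadraticMap.polar (DFunLike.coe Q)
local notation "𝐎" => {x // x ∈ Cfsg.isometryGroup F (DFunLike.coe Q)}
local notation:70 g:70 " ∙ " x:71 => ((g : Matrix.GeneralLinearGroup ι F) : Matrix ι ι F) *ᵥ x

/-- the Weyl element -/
noncomputable def tau (e f w : ι → F) : 𝐎 := E Q e w * E Q f ((Q w)⁻¹ • w) * E Q e w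

section tau

theorem tau_apply {e f w : ι → F} (he : Q e = 0) (hf : Q f = 0) (hef : 𝐁 e f = 1)
    (hew : 𝐁 e w = 0) (hfw : 𝐁 f w = 0) (hw : Q w ≠ 0) (x : ι → F) :
    tau Q e f w ∙ x = x - ((Q w)⁻¹ * 𝐁 x w) • w - (𝐁 x e + (Q w)⁻¹ * 𝐁 x f) • (Q w • e + f) := by
  have hfw' : 𝐁 f ((Q w)⁻¹ • w) = 0 := by rw [QuadraticMap.polar_smul_right, hfw, smul_zero]
  have hfe : 𝐁 f e = 1 := by rw [QuadraticMap.polar_comm]; exact hef
  have hwe : 𝐁 w e = 0 := by rw [QuadraticMap.polar_comm]; exact hew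
  have hwf : 𝐁 w f = 0 := by rw [QuadraticMap.polar_comm]; exact hfw
  have hee : 𝐁 e e = 0 := polar_self_of_singular Q he
  have hff : 𝐁 f f = 0 := polar_self_of_singular Q hf
  have hww : 𝐁 w w = 2 * Q w := by rw [QuadraticMap.polar_self]; simp
  unfold tau
  rw [mul_mulVec, mul_mulVec, E_apply Q he hew, E_apply Q hf hfw', E_apply Q he hew]
  simp only [QuadraticMap.polar_add_left, QuadraticMap.polar_sub_left, QuadraticMap.polar_smul_left,
    QuadraticMap.polar_smul_right, QuadraticMap.map_smul, hee, hff, hww, hef, hfe, hew, hwe, hfw, hwf,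
    smul_eq_mul]
  funext k
  simp only [Pi.add_apply, Pi.sub_apply, Pi.smul_apply, smul_eq_mul]
  field_simp
  ring

theorem tau_mul_self {e f w : ι → F} (he : Q e = 0) (hf : Q f = 0) (hef : 𝐁 e f = 1)
    (hew : 𝐁 e w = 0) (hfw : 𝐁 f w = 0) (hw : Q w ≠ 0) : tau Q e f w * tau Q e f w = 1 := by
  have hfe : 𝐁 f e = 1 := by rw [QuadraticMap.polar_comm]; exact hef
  have hwe : 𝐁 w e = 0 := by rw [QuadraticMap.polar_comm]; exact hew
  have hwf : 𝐁 w f = 0 := by rw [QuadraticMap.polar_comm]; exact hfw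
  have hee : 𝐁 e e = 0 := polar_self_of_singular Q he
  have hff : 𝐁 f f = 0 := polar_self_of_singular Q hf
  have hww : 𝐁 w w = 2 * Q w := by rw [QuadraticMap.polar_self]; simp
  apply ext_mulVec
  intro x
  rw [mul_mulVec, one_mulVec', tau_apply Q he hf hef hew hfw hw, tau_apply Q he hf hef hew hfw hw]
  simp only [QuadraticMap.polar_add_left, QuadraticMap.polar_sub_left, QuadraticMap.polar_smul_left,
    QuadraticMap.polar_smul_right, QuadraticMap.map_smul, hee, hff, hww, hef, hfe, hew, hwe, hfw, hwf,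
    smul_eq_mul]
  funext k
  simp only [Pi.add_apply, Pi.sub_apply, Pi.smul_apply, smul_eq_mul]
  field_simp
  ring

theorem tau_e {e f w : ι → F} (he : Q e = 0) (hf : Q f = 0) (hef : 𝐁 e f = 1)
    (hew : 𝐁 e w = 0) (hfw : 𝐁 f w = 0) (hw : Q w ≠ 0) : tau Q e f w ∙ e = (-(Q w)⁻¹) • f := by
  have hee : 𝐁 e e = 0 := polar_self_of_singular Q he
  rw [tau_apply Q he hf hef hew hfw hw, hew, hee, hef]
  funext k
  simp only [Pi.add_apply, Pi.sub_apply, Pi.smul_apply, smul_eq_mul]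
  field_simp
  ring

end tau

/-! ### geometry in Witt index one -/

theorem aniso (hW : WittOne Q) {e f y : ι → F} (he0 : e ≠ 0) (he : Q e = 0) (hef : 𝐁 e f = 1)
    (hey : 𝐁 e y = 0) (hfy : 𝐁 f y = 0) (hy : Q y = 0) : y = 0 := by
  obtain ⟨c, rfl⟩ := hW e y he hy hey he0
  rw [QuadraticMap.polar_smul_right, QuadraticMap.polar_comm, hef, smul_eq_mul, mul_one] at hfy
  rw [hfy, zero_smul]

theorem polar_ne_zero (hW : WittOne Q) {e a : ι → F} (he0 : e ≠ 0) (he : Q e = 0) (ha : Q a = 0)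
    (hae : a ∉ Submodule.span F {e}) : 𝐁 e a ≠ 0 := by
  intro h
  obtain ⟨c, rfl⟩ := hW e a he ha h he0
  exact hae (Submodule.mem_span_singleton.2 ⟨c, rfl⟩)

/-- the root group of `e` is transitive on the other singular points -/
theorem exists_move (hW : WittOne Q) {e a b : ι → F} (he0 : e ≠ 0) (he : Q e = 0) (ha : Q a = 0)
    (hb : Q b = 0) (hae : a ∉ Submodule.span F {e}) (hbe : b ∉ Submodule.span F {e}) :
    ∃ (w : ι → F) (c : F), 𝐁 e w = 0 ∧ c ≠ 0 ∧ E Q e w ∙ a = c • b := by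
  have h1 := polar_ne_zero Q hW he0 he ha hae
  have h2 := polar_ne_zero Q hW he0 he hb hbe
  have hd : 𝐁 e ((𝐁 e a / 𝐁 e b) • b - a) = 0 := by
    rw [QuadraticMap.polar_sub_right, QuadraticMap.polar_smul_right, smul_eq_mul]
    field_simp
    ring
  refine ⟨-(𝐁 a e)⁻¹ • ((𝐁 e a / 𝐁 e b) • b - a), 𝐁 e a / 𝐁 e b, ?_, div_ne_zero h1 h2, ?_⟩
  · rw [QuadraticMap.polar_smul_right, hd, smul_zero]
  · exact E_move Q he (by rw [ha, QuadraticMap.map_smul, hb, smul_zero]) hd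
      (by rw [QuadraticMap.polar_comm]; exact h1)

theorem exists_orth_ne_zero (hQ : (QuadraticMap.polarBilin Q).Nondegenerate)
    (hn : 3 ≤ Fintype.card ι) (e f : ι → F) : ∃ y, y ≠ 0 ∧ 𝐁 e y = 0 ∧ 𝐁 f y = 0 := by
  have h1 := finrank_orth_add Q hQ (Submodule.span F {e, f})
  have h2 := finrank_span_pair_le e f
  have h3 : LinearMap.BilinForm.orthogonal (QuadraticMap.polarBilin Q) (Submodule.span F {e, f}) ≠ ⊥ := by
    intro h
    rw [h, finrank_bot] at h1
    omega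
  obtain ⟨y, hy, hy0⟩ := Submodule.exists_mem_ne_zero_of_ne_bot h3
  rw [mem_orth_span_pair] at hy
  exact ⟨y, hy0, hy.1, hy.2⟩

/-- A matrix stabilising every singular point is a scalar (Witt index one, odd characteristic). -/
theorem scalar_of_singular' [Finite F] (h2 : (2 : F) ≠ 0)
    (hQ : (QuadraticMap.polarBilin Q).Nondegenerate)
    (hn : 3 ≤ Fintype.card ι) (hW : WittOne Q) (M : Matrix ι ι F)
    (hM : ∀ e, Q e = 0 → ∃ l : F, M *ᵥ e = l • e) : ∃ l : F, M = l • (1 : Matrix ι ι F) := by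
  obtain ⟨e, -, he0, he⟩ := exists_singular_sub Q (P := ⊤) (by
    rw [finrank_top, Module.finrank_fintype_fun_eq_card]; exact hn)
  obtain ⟨f, hf, hef⟩ := exists_hyp_partner Q hQ he0 he
  have hfe : 𝐁 f e = 1 := by rw [QuadraticMap.polar_comm]; exact hef
  have hee : 𝐁 e e = 0 := polar_self_of_singular Q he
  have hff : 𝐁 f f = 0 := polar_self_of_singular Q hf
  obtain ⟨l, hl⟩ := hM e he
  obtain ⟨m, hm⟩ := hM f hf
  have key : ∀ y, y ≠ 0 → 𝐁 e y = 0 → 𝐁 f y = 0 → m = l ∧ M *ᵥ y = l • y := by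
    intro y hy0 hey hfy
    have hye : 𝐁 y e = 0 := by rw [QuadraticMap.polar_comm]; exact hey
    have hyf : 𝐁 y f = 0 := by rw [QuadraticMap.polar_comm]; exact hfy
    have hyy : 𝐁 y y = 2 * Q y := by rw [QuadraticMap.polar_self]; simp
    have hQy : Q y ≠ 0 := fun h => hy0 (aniso Q hW he0 he hef hey hfy h)
    have hs1 : Q (f - Q y • e - y) = 0 := by
      rw [Q_sub, Q_sub, QuadraticMap.map_smul, he, hf, QuadraticMap.polar_smul_right, hfe,
        QuadraticMap.polar_sub_left, QuadraticMap.polar_smul_left, hfy, hey]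
      simp
    have hs2 : Q (f - Q y • e + y) = 0 := by
      rw [Q_add, Q_sub, QuadraticMap.map_smul, he, hf, QuadraticMap.polar_smul_right, hfe,
        QuadraticMap.polar_sub_left, QuadraticMap.polar_smul_left, hfy, hey]
      simp
    obtain ⟨n1, hn1⟩ := hM _ hs1
    obtain ⟨n2, hn2⟩ := hM _ hs2
    rw [Matrix.mulVec_sub, Matrix.mulVec_sub, Matrix.mulVec_smul, hl, hm] at hn1
    rw [Matrix.mulVec_add, Matrix.mulVec_sub, Matrix.mulVec_smul, hl, hm] at hn2
    -- sum of the two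
    have hsum : (2 * m) • f - (2 * Q y * l) • e
        = (n1 + n2) • f - ((n1 + n2) * Q y) • e + (n2 - n1) • y := by
      have := congrArg₂ (· + ·) hn1 hn2
      funext k
      have hk := congrFun this k
      simp only [Pi.add_apply, Pi.sub_apply, Pi.smul_apply, smul_eq_mul] at hk ⊢
      linear_combination hk
    have e1 := congrArg (fun v => 𝐁 v y) hsum
    have e2 := congrArg (fun v => 𝐁 v e) hsum
    have e3 := congrArg (fun v => 𝐁 v f) hsum
    simp only [QuadraticMap.polar_add_left, QuadraticMap.polar_sub_left,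
      QuadraticMap.polar_smul_left, hee, hff, hef, hfe, hey, hye, hfy, hyf, hyy, smul_eq_mul] at e1 e2 e3
    have hn12 : n2 = n1 := by
      have : (n2 - n1) * (2 * Q y) = 0 := by linear_combination -e1
      rcases mul_eq_zero.1 this with h | h
      · exact sub_eq_zero.1 h
      · exact absurd h (mul_ne_zero h2 hQy)
    subst hn12
    have hmn : m = n2 := by
      have : 2 * (m - n2) = 0 := by linear_combination e2
      exact sub_eq_zero.1 ((mul_eq_zero.1 this).resolve_left h2)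
    have hln : l = n2 := by
      have : (2 * Q y) * (l - n2) = 0 := by linear_combination -e3
      exact sub_eq_zero.1 ((mul_eq_zero.1 this).resolve_left (mul_ne_zero h2 hQy))
    refine ⟨hmn.trans hln.symm, ?_⟩
    have hdiff : (2 : F) • (M *ᵥ y) = (2 : F) • (l • y) := by
      have := congrArg₂ (· - ·) hn2 hn1
      funext k
      have hk := congrFun this k
      simp only [Pi.add_apply, Pi.sub_apply, Pi.smul_apply, smul_eq_mul] at hk ⊢
      rw [hln]
      linear_combination hk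
    exact smul_right_injective _ h2 hdiff
  obtain ⟨y₀, hy₀, hey₀, hfy₀⟩ := exists_orth_ne_zero Q hQ hn e f
  have hml : m = l := (key y₀ hy₀ hey₀ hfy₀).1
  refine ⟨l, ?_⟩
  apply Matrix.mulVec_injective
  funext x
  rw [Matrix.smul_mulVec, Matrix.one_mulVec]
  set y := x - 𝐁 x f • e - 𝐁 x e • f with hy
  have hx : x = 𝐁 x f • e + 𝐁 x e • f + y := by rw [hy]; abel
  have hey : 𝐁 e y = 0 := by
    rw [hy, QuadraticMap.polar_sub_right, QuadraticMap.polar_sub_right, QuadraticMap.polar_smul_right,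
      QuadraticMap.polar_smul_right, hee, hef, QuadraticMap.polar_comm ⇑Q e x]
    simp
  have hfy : 𝐁 f y = 0 := by
    rw [hy, QuadraticMap.polar_sub_right, QuadraticMap.polar_sub_right, QuadraticMap.polar_smul_right,
      QuadraticMap.polar_smul_right, hff, hfe, QuadraticMap.polar_comm ⇑Q f x]
    simp
  have hMy : M *ᵥ y = l • y := by
    by_cases hy0 : y = 0
    · rw [hy0]; simp
    · exact (key y hy0 hey hfy).2
  conv_lhs => rw [hx]
  rw [Matrix.mulVec_add, Matrix.mulVec_add, Matrix.mulVec_smul, Matrix.mulVec_smul, hl, hm, hMy, hml]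
  conv_rhs => rw [hx]
  simp only [smul_add, smul_smul, mul_comm]


/-! ### the Iwasawa argument -/

theorem E_mem_TT' (e w : ι → F) : E Q e w ∈ TT Q := by
  by_cases h : Q e = 0 ∧ 𝐁 e w = 0
  · exact E_mem_TT Q h.1 h.2
  · unfold E
    rw [dif_neg h]
    exact Subgroup.one_mem _

/-- Eichler transformations as elements of `TT Q` -/
noncomputable def ET (e w : ι → F) : ↥(TT Q) := ⟨E Q e w, E_mem_TT' Q e w⟩

theorem ET_mul {e w w' : ι → F} (he : Q e = 0) (hw : 𝐁 e w = 0) (hw' : 𝐁 e w' = 0) :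
    ET Q e w * ET Q e w' = ET Q e (w + w') := Subtype.ext (E_mul Q he hw hw')

theorem ET_inv {e w : ι → F} (he : Q e = 0) (hw : 𝐁 e w = 0) : (ET Q e w)⁻¹ = ET Q e (-w) :=
  Subtype.ext (E_inv Q he hw)

theorem ET_zero (e : ι → F) : ET Q e 0 = 1 := Subtype.ext (E_zero Q e)

theorem E_zero_left (w : ι → F) : E Q 0 w = 1 := by
  apply ext_mulVec
  intro x
  rw [E_apply Q (map_zero Q) (by simp), one_mulVec']
  simp

theorem ET_pow {e w : ι → F} (he : Q e = 0) (hw : 𝐁 e w = 0) (k : ℕ) :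
    (ET Q e w) ^ k = ET Q e (k • w) := by
  induction k with
  | zero => rw [pow_zero, zero_smul, ET_zero]
  | succ k ih =>
    rw [pow_succ, ih, ET_mul Q he _ hw, succ_nsmul]
    rw [← Nat.cast_smul_eq_nsmul F, QuadraticMap.polar_smul_right, hw, smul_zero]

/-- the set `N U_e` as a subgroup -/
def KK (N : Subgroup ↥(TT Q)) (hN : N.Normal) {e : ι → F} (he : Q e = 0) : Subgroup ↥(TT Q) where
  carrier := {g | ∃ w, 𝐁 e w = 0 ∧ g * (ET Q e w)⁻¹ ∈ N}
  one_mem' := ⟨0, by simp, by rw [ET_zero]; simp [N.one_mem]⟩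
  mul_mem' := by
    rintro g g' ⟨w, hw, h⟩ ⟨w', hw', h'⟩
    refine ⟨w + w', by rw [QuadraticMap.polar_add_right, hw, hw', add_zero], ?_⟩
    rw [← ET_mul Q he hw hw']
    have : g * g' * (ET Q e w * ET Q e w')⁻¹
        = (g * (ET Q e w)⁻¹) * (ET Q e w * (g' * (ET Q e w')⁻¹) * (ET Q e w)⁻¹) := by group
    rw [this]
    exact N.mul_mem h (hN.conj_mem _ h' _)
  inv_mem' := by
    rintro g ⟨w, hw, h⟩
    refine ⟨-w, by rw [QuadraticMap.polar_neg_right, hw, neg_zero], ?_⟩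
    rw [← ET_inv Q he hw]
    have : g⁻¹ * ((ET Q e w)⁻¹)⁻¹ = (ET Q e w)⁻¹ * (g * (ET Q e w)⁻¹)⁻¹ * ((ET Q e w)⁻¹)⁻¹ := by group
    rw [this]
    exact hN.conj_mem _ (N.inv_mem h) _

theorem gen_mem (hW : WittOne Q) (N : Subgroup ↥(TT Q)) (hN : N.Normal) {e : ι → F} (he0 : e ≠ 0)
    (he : Q e = 0) (x : ↥(TT Q)) (hx : x ∈ N)
    (hxe : (x : 𝐎) ∙ e ∉ Submodule.span F {e}) {e' w' : ι → F} (he' : Q e' = 0)
    (hw' : 𝐁 e' w' = 0) : ET Q e' w' ∈ KK Q N hN he := by
  by_cases he'0 : e' = 0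
  · subst he'0
    have : ET Q 0 w' = 1 := Subtype.ext (E_zero_left Q w')
    rw [this]
    exact Subgroup.one_mem _
  -- transitivity of `N`
  have htr : ∃ n ∈ N, ∃ c : F, c ≠ 0 ∧ ((n : ↥(TT Q)) : 𝐎) ∙ e = c • e' := by
    by_cases hmem : e' ∈ Submodule.span F {e}
    · obtain ⟨d, rfl⟩ := Submodule.mem_span_singleton.1 hmem
      have hd : d ≠ 0 := by
        rintro rfl
        exact he'0 (zero_smul _ _)
      refine ⟨1, N.one_mem, d⁻¹, inv_ne_zero hd, ?_⟩
      rw [smul_smul, inv_mul_cancel₀ hd, one_smul]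
      exact one_mulVec' Q e
    · obtain ⟨w₀, c, hw₀, hc, hmv⟩ := exists_move Q hW he0 he
        (by rw [iso_apply (Q := ⇑Q)]; exact he) he' hxe hmem
      refine ⟨ET Q e w₀ * x * (ET Q e w₀)⁻¹, hN.conj_mem x hx _, c, hc, ?_⟩
      rw [ET_inv Q he hw₀]
      change ((E Q e w₀ * (x : 𝐎) * E Q e (-w₀) : 𝐎)) ∙ e = c • e'
      rw [mul_mulVec, mul_mulVec,
        E_apply_self Q he (by rw [QuadraticMap.polar_neg_right, hw₀, neg_zero]), hmv]
  obtain ⟨n, hnN, c, hc, hne⟩ := htr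
  have hQne : Q (((n : ↥(TT Q)) : 𝐎) ∙ e) = 0 := by rw [iso_apply (Q := ⇑Q)]; exact he
  have hnw : 𝐁 (((n : ↥(TT Q)) : 𝐎) ∙ e) w' = 0 := by
    rw [hne, QuadraticMap.polar_smul_left, hw', smul_zero]
  set w'' : ι → F := ((n : ↥(TT Q)) : 𝐎)⁻¹ ∙ (c⁻¹ • w') with hw''def
  have hnw'' : ((n : ↥(TT Q)) : 𝐎) ∙ w'' = c⁻¹ • w' := mulVec_inv_mulVec Q _ _
  have hw'' : 𝐁 e w'' = 0 := by
    rw [← polar_iso Q ((n : ↥(TT Q)) : 𝐎), hnw'', QuadraticMap.polar_smul_right, hnw, smul_zero]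
  have hconj : ET Q e' w' = n * ET Q e w'' * n⁻¹ := by
    apply Subtype.ext
    change E Q e' w' = ((n : ↥(TT Q)) : 𝐎) * E Q e w'' * ((n : ↥(TT Q)) : 𝐎)⁻¹
    rw [E_conj Q _ he hw'', hnw'', ← E_smul Q hQne hnw, hne, smul_smul, inv_mul_cancel₀ hc, one_smul]
  refine ⟨w'', hw'', ?_⟩
  rw [hconj]
  have : n * ET Q e w'' * n⁻¹ * (ET Q e w'')⁻¹ = n * (ET Q e w'' * n⁻¹ * (ET Q e w'')⁻¹) := by group
  rw [this]
  exact N.mul_mem hnN (hN.conj_mem _ (N.inv_mem hnN) _)

theorem KK_eq_top (hW : WittOne Q) (N : Subgroup ↥(TT Q)) (hN : N.Normal) {e : ι → F} (he0 : e ≠ 0)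
    (he : Q e = 0) (x : ↥(TT Q)) (hx : x ∈ N)
    (hxe : (x : 𝐎) ∙ e ∉ Submodule.span F {e}) (g : ↥(TT Q)) : g ∈ KK Q N hN he := by
  have hle : Subgroup.closure (EichSet Q) ≤ (KK Q N hN he).map (TT Q).subtype := by
    rw [Subgroup.closure_le]
    rintro _ ⟨e', w', he', hw', rfl⟩
    exact ⟨ET Q e' w', gen_mem Q hW N hN he0 he x hx hxe he' hw', rfl⟩
  obtain ⟨g', hg', h⟩ := hle g.2
  have : g' = g := Subtype.ext h
  rw [← this]
  exact hg'

theorem TT_H3_wittone_aux [Fintype F] (h2 : (2 : F) ≠ 0)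
    (hQ : (QuadraticMap.polarBilin Q).Nondegenerate) (hn : 3 ≤ Fintype.card ι) (hW : WittOne Q) :
    TTH3 Q := by
  intro N hN
  by_cases hall : ∀ x ∈ N, IsScal (x : 𝐎)
  · exact Or.inl hall
  right
  push Not at hall
  obtain ⟨x, hxN, hx⟩ := hall
  have hmv : ∃ e, Q e = 0 ∧ ¬ ∃ l : F, (x : 𝐎) ∙ e = l • e := by
    by_contra hcon
    push Not at hcon
    exact hx (scalar_of_singular' Q h2 hQ hn hW _ hcon)
  obtain ⟨e, he, hxe⟩ := hmv
  have he0 : e ≠ 0 := by
    rintro rfl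
    exact hxe ⟨0, by simp⟩
  have hxe' : (x : 𝐎) ∙ e ∉ Submodule.span F {e} := by
    intro h
    obtain ⟨l, hl⟩ := Submodule.mem_span_singleton.1 h
    exact hxe ⟨l, hl.symm⟩
  obtain ⟨f, hf, hef⟩ := exists_hyp_partner Q hQ he0 he
  obtain ⟨w, hw0, hew, hfw⟩ := exists_orth_ne_zero Q hQ hn e f
  have hQw : Q w ≠ 0 := fun h => hw0 (aniso Q hW he0 he hef hew hfw h)
  have hτ : tau Q e f w ∈ TT Q :=
    Subgroup.mul_mem _ (Subgroup.mul_mem _ (E_mem_TT' Q _ _) (E_mem_TT' Q _ _)) (E_mem_TT' Q _ _)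
  set t : ↥(TT Q) := ⟨tau Q e f w, hτ⟩ with ht
  have htt : t * t = 1 := Subtype.ext (tau_mul_self Q he hf hef hew hfw hQw)
  refine ⟨t, ?_, ?_, ?_⟩
  · obtain ⟨w₁, hw₁, hn₁⟩ := KK_eq_top Q hW N hN he0 he x hxN hxe' t
    set u := ET Q e w₁ with hu
    set n := t * u⁻¹ with hn
    have htn : t = n * u := by rw [hn]; group
    have huu : u * u ∈ N := by
      have h : n * u * (n * u) = 1 := by rw [← htn]; exact htt
      have h' : u * u = (u * n * u⁻¹)⁻¹ * n⁻¹ := by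
        calc u * u = (u * n * u⁻¹)⁻¹ * n⁻¹ * (n * u * (n * u)) := by group
          _ = (u * n * u⁻¹)⁻¹ * n⁻¹ := by rw [h, mul_one]
      rw [h']
      exact N.mul_mem (N.inv_mem (hN.conj_mem _ hn₁ _)) (N.inv_mem hn₁)
    have huN : u ∈ N := by
      have hp : (ringChar F).Prime := CharP.char_is_prime F (ringChar F)
      rcases hp.eq_two_or_odd' with h | ⟨k, hk⟩
      · exfalso
        apply h2
        have := CharP.cast_eq_zero F (ringChar F)
        rw [h] at this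
        exact_mod_cast this
      · have h1 : (u * u) ^ (k + 1) = u := by
          rw [← pow_two, ← pow_mul, hu, ET_pow Q he hw₁]
          congr 1
          have h3 : 2 * (k + 1) = ringChar F + 1 := by omega
          rw [h3, succ_nsmul, ← Nat.cast_smul_eq_nsmul F, CharP.cast_eq_zero F (ringChar F), zero_smul,
            zero_add]
        rw [← h1]
        exact N.pow_mem huu _
    rw [htn]
    exact N.mul_mem hn₁ huN
  · rintro ⟨c, hc⟩
    have h1 := tau_e Q he hf hef hew hfw hQw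
    have hc' : (((tau Q e f w : 𝐎) : Matrix.GeneralLinearGroup ι F) : Matrix ι ι F)
        = c • (1 : Matrix ι ι F) := hc
    rw [hc', Matrix.smul_mulVec, Matrix.one_mulVec] at h1
    have h3 := congrArg (fun v => 𝐁 e v) h1
    simp only [QuadraticMap.polar_smul_right, polar_self_of_singular Q he, hef, smul_eq_mul, mul_zero,
      mul_one] at h3
    exact inv_ne_zero hQw (neg_eq_zero.1 h3.symm)
  · rw [htt]
    exact ⟨1, by simp⟩

end main

/-- piece O5 -/
theorem TT_H3_wittone {F : Type*} [Field F] [Fintype F] {ι : Type} [Fintype ι] [DecidableEq ι]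
    (h2 : (2 : F) ≠ 0) (Q : QuadraticForm F (ι → F))
    (hQ : (QuadraticMap.polarBilin Q).Nondegenerate) (hn : 3 ≤ Fintype.card ι) (hW : WittOne Q) :
    TTH3 Q := TT_H3_wittone_aux Q h2 hQ hn hW

end Cfsg.Agent.Lib.Helper40LBO5
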