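import Mathlib
import Cfsg.Prelude
import Cfsg.Agent.Lib.Helper42LBDefs
import Cfsg.Agent.Lib.Helper49Geo

set_option autoImplicit false
set_option linter.unusedSectionVars false

/-! PROJECT 42, piece O7. -/

namespace Cfsg.Agent.Lib.Helper40LBO7

open Matrix Cfsg Module Cfsg.Agent.Lib.Helper49EichGen Cfsg.Agent.Lib.Helper42LBDefs
  Cfsg.Agent.Lib.Helper49Geo Cfsg.Agent.Lib.Helper49Orth Cfsg.Agent.Lib.Helper49Hyp

variable {F : Type*} [Field F] [Fintype F]
variable {ι : Type} [Fintype ι] [DecidableEq ι]

/-- piece O7 -/
theorem wittOne_of_three (Q : QuadraticForm F (ι → F))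
    (hQ : (QuadraticMap.polarBilin Q).Nondegenerate) (hn : Fintype.card ι = 3) : WittOne Q := by
  intro e e' he he' hee' he0
  by_contra hcon
  have hmem : e' ∉ Submodule.span F {e} := by
    intro h
    obtain ⟨c, hc⟩ := Submodule.mem_span_singleton.1 h
    exact hcon ⟨c, hc.symm⟩
  have hli : LinearIndependent F ![e, e'] := by
    rw [LinearIndependent.pair_iff' he0]
    intro a ha
    exact hmem (Submodule.mem_span_singleton.2 ⟨a, ha⟩)
  have hfr : finrank F (Submodule.span F {e, e'}) = 2 := by
    have := finrank_span_eq_card hli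
    rw [Matrix.range_cons, Matrix.range_cons, Matrix.range_empty, Set.union_empty,
      Set.singleton_union, Fintype.card_fin] at this
    exact this
  have hle : Submodule.span F {e, e'} ≤
      LinearMap.BilinForm.orthogonal (QuadraticMap.polarBilin Q) (Submodule.span F {e, e'}) := by
    rw [Submodule.span_le]
    intro x hx
    rw [SetLike.mem_coe, mem_orth_span_pair]
    rcases hx with rfl | rfl
    · exact ⟨polar_self_of_singular Q he, by rw [QuadraticMap.polar_comm]; exact hee'⟩
    · exact ⟨hee', polar_self_of_singular Q he'⟩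
  have h1 := Submodule.finrank_mono hle
  have h2 := finrank_orth_add Q hQ (Submodule.span F {e, e'})
  omega

end Cfsg.Agent.Lib.Helper40LBO7
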