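import Mathlib
import Cfsg.Prelude
import Cfsg.Agent.Lib.Helper42LBDefs
import Cfsg.Agent.Lib.Helper49Simple
import Cfsg.Agent.Lib.Helper51AO2

set_option autoImplicit false

/-! PROJECT 42, piece O4: `TTH3 Q` in dimension at least five (helper97). -/

namespace Cfsg.Agent.Lib.Helper97LBO4

open Matrix Cfsg Cfsg.Agent.Lib.Helper49EichGen Cfsg.Agent.Lib.Helper42LBDefs
  Cfsg.Agent.Lib.Helper49Eich Cfsg.Agent.Lib.Helper49Geo Cfsg.Agent.Lib.Helper49Hyp
  Cfsg.Agent.Lib.Helper49Orth Cfsg.Agent.Lib.Helper49Simple Cfsg.Agent.Lib.Helper49Center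
  Cfsg.Agent.Lib.Helper49Trans Cfsg.Agent.Lib.Helper49All Cfsg.Agent.Lib.Helper49CharTwoA
  Cfsg.Agent.Lib.Helper51AO2

variable {F : Type*} [Field F] [Fintype F]
variable {ι : Type} [Fintype ι] [DecidableEq ι]

/-- two orthogonal vectors of the same nonzero norm -/
theorem exists_pair (h2 : (2 : F) ≠ 0) (Q : QuadraticForm F (ι → F))
    (hQ : (QuadraticMap.polarBilin Q).Nondegenerate) (hn : 3 ≤ Fintype.card ι) :
    ∃ u v : ι → F, Q u ≠ 0 ∧ Q u = Q v ∧ QuadraticMap.polar ⇑Q u v = 0 := by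
  obtain ⟨u, hu⟩ := exists_nonsingular Q hQ (by omega)
  have hu0 : u ≠ 0 := by
    rintro rfl
    exact hu (QuadraticMap.map_zero _)
  have hP : (LinearMap.BilinForm.orthogonal (QuadraticMap.polarBilin Q) (Submodule.span F {u})) ⊓
      LinearMap.BilinForm.orthogonal (QuadraticMap.polarBilin Q)
        (LinearMap.BilinForm.orthogonal (QuadraticMap.polarBilin Q) (Submodule.span F {u})) = ⊥ := by
    rw [LinearMap.BilinForm.orthogonal_orthogonal hQ (polarBilin_isRefl Q), eq_bot_iff]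
    rintro x ⟨hx1, hx2⟩
    obtain ⟨c, rfl⟩ := Submodule.mem_span_singleton.1 hx2
    have h1 := (mem_orth_span_singleton Q).1 hx1
    rw [QuadraticMap.polar_smul_right, QuadraticMap.polar_self, smul_eq_mul, two_smul] at h1
    have h3 : c * (2 * Q u) = 0 := by linear_combination h1
    have hc : c = 0 := (mul_eq_zero.1 h3).resolve_right (mul_ne_zero h2 hu)
    rw [hc, zero_smul]
    exact Submodule.zero_mem _
  have hd := finrank_orth_add Q hQ (Submodule.span F {u})
  rw [finrank_span_singleton hu0] at hd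
  obtain ⟨v, hv, hQv⟩ := exists_Q_eq_sub Q h2 hP (by omega) (Q u)
  exact ⟨u, v, hu, hQv.symm, (mem_orth_span_singleton Q).1 hv⟩

/-- piece O4 -/
theorem TT_H3_five (h2 : (2 : F) ≠ 0) (Q : QuadraticForm F (ι → F))
    (hQ : (QuadraticMap.polarBilin Q).Nondegenerate) (hn : 5 ≤ Fintype.card ι) :
    TTH3 Q := by
  obtain ⟨u, v, hu, huv, hpol⟩ := exists_pair h2 Q hQ (by omega)
  have hv : Q v ≠ 0 := huv ▸ hu
  have hu0 : u ≠ 0 := by
    rintro rfl
    exact hu (QuadraticMap.map_zero _)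
  have hmem : reflO Q hu * reflO Q hv ∈ TT Q := reflO_mul_reflO_mem_TT Q hQ hn hu hv huv
  have hcomm : reflO Q hu * reflO Q hv = reflO Q hv * reflO Q hu := by
    apply iso_ext
    show reflectionMatrix ⇑Q u * reflectionMatrix ⇑Q v
      = reflectionMatrix ⇑Q v * reflectionMatrix ⇑Q u
    have := conj_refl Q (reflO Q hu) v
    rw [coe_reflO, refl_of_polar_eq_zero Q hpol] at this
    exact this
  have hsq : reflO Q hu * reflO Q hv * (reflO Q hu * reflO Q hv) = 1 := by
    calc reflO Q hu * reflO Q hv * (reflO Q hu * reflO Q hv)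
        = reflO Q hu * reflO Q hv * (reflO Q hv * reflO Q hu) := by rw [hcomm]
      _ = reflO Q hu * (reflO Q hv * reflO Q hv) * reflO Q hu := by group
      _ = 1 := by rw [reflO_mul_self, mul_one, reflO_mul_self]
  have hcoe : (((reflO Q hu * reflO Q hv : ↥(isometryGroup F ⇑Q)) : GL ι F) : Matrix ι ι F)
      = reflectionMatrix ⇑Q u * reflectionMatrix ⇑Q v := rfl
  have hns : ∀ c : F, reflectionMatrix ⇑Q u * reflectionMatrix ⇑Q v ≠ c • (1 : Matrix ι ι F) := by
    intro c hc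
    have hpol' : QuadraticMap.polar ⇑Q v u = 0 := by rw [QuadraticMap.polar_comm]; exact hpol
    have h3 := congrArg (fun M : Matrix ι ι F => M *ᵥ u) hc
    simp only [← Matrix.mulVec_mulVec, Matrix.smul_mulVec, Matrix.one_mulVec] at h3
    rw [refl_of_polar_eq_zero Q hpol', refl_self Q hu] at h3
    obtain ⟨w, hw0, hw1, hw2, -, -⟩ := exists_orth4 Q hQ hn u v 0 0
    have h4 := congrArg (fun M : Matrix ι ι F => M *ᵥ w) hc
    simp only [← Matrix.mulVec_mulVec, Matrix.smul_mulVec, Matrix.one_mulVec] at h4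
    rw [refl_of_polar_eq_zero Q hw2, refl_of_polar_eq_zero Q hw1] at h4
    have hc1 : c = 1 := by
      have : (1 - c) • w = 0 := by rw [sub_smul, one_smul, ← h4, sub_self]
      have := (smul_eq_zero.1 this).resolve_right hw0
      linear_combination -this
    rw [hc1, one_smul] at h3
    have h5 : (2 : F) • u = 0 := by
      rw [two_smul]
      nth_rewrite 1 [← h3]
      exact neg_add_cancel _
    exact hu0 ((smul_eq_zero.1 h5).resolve_left h2)
  have key : ∀ H : Subgroup ↥(isometryGroup F ⇑Q), H = Cfsg.Omega F ⇑Q →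
      ∀ N : Subgroup ↥H, N.Normal →
        (∀ x ∈ N, IsScal (x : ↥(Cfsg.isometryGroup F ⇑Q))) ∨
          ∃ t ∈ N, ¬ IsScal (t : ↥(Cfsg.isometryGroup F ⇑Q)) ∧
            IsScal ((t * t : ↥H) : ↥(Cfsg.isometryGroup F ⇑Q)) := by
    rintro H rfl N hN
    have hmem' : reflO Q hu * reflO Q hv ∈ Cfsg.Omega F ⇑Q := by
      rw [Omega_eq_TT Q hQ hn]; exact hmem
    have hs := POmega_simple Q hQ hn
    have hN' : (N.map (QuotientGroup.mk' (Subgroup.center ↥(Omega F ⇑Q)))).Normal :=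
      hN.map _ (QuotientGroup.mk'_surjective _)
    rcases hN'.eq_bot_or_eq_top with h | h
    · left
      intro x hx
      have h1 : QuotientGroup.mk' (Subgroup.center ↥(Omega F ⇑Q)) x ∈
          N.map (QuotientGroup.mk' (Subgroup.center ↥(Omega F ⇑Q))) := Subgroup.mem_map_of_mem _ hx
      rw [h, Subgroup.mem_bot] at h1
      have h3 := (QuotientGroup.eq_one_iff x).1 h1
      rcases coe_eq_of_mem_center Q hQ hn h3 with h4 | h4
      · exact ⟨1, by rw [h4, one_smul]⟩
      · exact ⟨-1, by rw [h4, neg_smul, one_smul]⟩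
    · right
      have h1 : QuotientGroup.mk' (Subgroup.center ↥(Omega F ⇑Q)) ⟨_, hmem'⟩ ∈
          N.map (QuotientGroup.mk' (Subgroup.center ↥(Omega F ⇑Q))) := by rw [h]; trivial
      obtain ⟨x, hx, e⟩ := h1
      have h3 : x⁻¹ * ⟨_, hmem'⟩ ∈ Subgroup.center ↥(Omega F ⇑Q) := QuotientGroup.eq.1 e
      have h4 : reflectionMatrix ⇑Q u * reflectionMatrix ⇑Q v
          = (((x : ↥(isometryGroup F ⇑Q)) : GL ι F) : Matrix ι ι F) *
            ((((x⁻¹ * ⟨_, hmem'⟩ : ↥(Omega F ⇑Q)) : ↥(isometryGroup F ⇑Q)) : GL ι F) :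
              Matrix ι ι F) := by
        rw [← hcoe, ← Units.val_mul, ← Subgroup.coe_mul, ← Subgroup.coe_mul, mul_inv_cancel_left]
      have h5 : ∃ ε : F, ε * ε = 1 ∧ (((x : ↥(isometryGroup F ⇑Q)) : GL ι F) : Matrix ι ι F)
          = ε • (reflectionMatrix ⇑Q u * reflectionMatrix ⇑Q v) := by
        rcases coe_eq_of_mem_center Q hQ hn h3 with h6 | h6
        · exact ⟨1, by ring, by rw [h4, h6, mul_one, one_smul]⟩
        · exact ⟨-1, by ring, by rw [h4, h6, mul_neg, mul_one, neg_smul, one_smul, neg_neg]⟩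
      obtain ⟨ε, hε, hxε⟩ := h5
      refine ⟨x, hx, ?_, ?_⟩
      · rintro ⟨c, hc⟩
        apply hns (ε * c)
        rw [hxε] at hc
        rw [mul_smul, ← hc, smul_smul, hε, one_smul]
      · refine ⟨1, ?_⟩
        have h7 : reflectionMatrix ⇑Q u * reflectionMatrix ⇑Q v *
            (reflectionMatrix ⇑Q u * reflectionMatrix ⇑Q v) = 1 := by
          have := congrArg (fun g : ↥(isometryGroup F ⇑Q) => ((g : GL ι F) : Matrix ι ι F)) hsq
          exact this
        show (((x : ↥(isometryGroup F ⇑Q)) : GL ι F) : Matrix ι ι F) *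
          (((x : ↥(isometryGroup F ⇑Q)) : GL ι F) : Matrix ι ι F) = _
        rw [hxε, Matrix.smul_mul, Matrix.mul_smul, h7, smul_smul, hε]
  exact key (TT Q) (Omega_eq_TT Q hQ hn).symm

end Cfsg.Agent.Lib.Helper97LBO4
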