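import Mathlib
import Cfsg.Agent.Lib.Helper18BalK
import Cfsg.Agent.Lib.Helper97LBO4
import Cfsg.Agent.Lib.Helper40LBO5
import Cfsg.Agent.Lib.Helper40LBO7
import Cfsg.Agent.Lib.Helper18GfA

set_option autoImplicit false
set_option linter.unusedSectionVars false

/-! Local balance: reduction of similitudes with two eigenspaces to model A (helper18). -/

namespace Cfsg.Agent.Lib.Helper18BalL

open Cfsg Matrix Module
open scoped MatrixGroups
open Cfsg.Agent.Lib.Helper49Orth Cfsg.Agent.Lib.Helper49Center Cfsg.Agent.Lib.Helper49Eich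
  Cfsg.Agent.Lib.Helper49EichGen
  Cfsg.Agent.Lib.Helper51OrthAut Cfsg.Agent.Lib.Helper51OrthIdx Cfsg.Agent.Lib.Helper51OrthIdx2
  Cfsg.Agent.Lib.Helper18GamA Cfsg.Agent.Lib.Helper18GamB Cfsg.Agent.Lib.Helper18RecA
  Cfsg.Agent.Lib.Helper18BalA Cfsg.Agent.Lib.Helper18BalB Cfsg.Agent.Lib.Helper18BalC
  Cfsg.Agent.Lib.Helper18BalD Cfsg.Agent.Lib.Helper18BalE Cfsg.Agent.Lib.Helper18BalF
  Cfsg.Agent.Lib.Helper18BalH Cfsg.Agent.Lib.Helper42LBDefs Cfsg.Agent.Lib.Helper18Hyp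

section abstract

theorem balanced_iff {K : Type*} [Group K] {p : ℕ} {x : MulAut K} :
    Balanced p x ↔ FieldCrit p x ∧
      ¬ Nat.Coprime p (Nat.card ↥(MonoidHom.eqLocus x.toMonoidHom (MonoidHom.id K))) := by
  constructor
  · intro h
    exact ⟨h.fieldCrit, h.2⟩
  · rintro ⟨h1, h2⟩
    refine ⟨fun A hA => ?_, h2⟩
    by_contra hcon
    exact h2 ((h1 A hA).1 hcon)

theorem Balanced.of_congr {K K' : Type*} [Group K] [Group K'] [Finite K] (ψ : K ≃* K') {p : ℕ}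
    {x : MulAut K} (h : Balanced p (MulAut.congr ψ x)) : Balanced p x := by
  rw [balanced_iff] at h ⊢
  refine ⟨fieldCrit_congr ψ h.1, ?_⟩
  rw [← card_fix_congr ψ]
  exact h.2

theorem congr_symm_congr {K K' : Type*} [Group K] [Group K'] (ψ : K ≃* K') (x : MulAut K) :
    MulAut.congr ψ.symm (MulAut.congr ψ x) = x := by
  ext k
  change ψ.symm (ψ (x (ψ.symm (ψ.symm.symm k)))) = x k
  simp

theorem Balanced.congr {K K' : Type*} [Group K] [Group K'] [Finite K'] (ψ : K ≃* K') {p : ℕ}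
    {x : MulAut K} (h : Balanced p x) : Balanced p (MulAut.congr ψ x) := by
  apply Balanced.of_congr ψ.symm
  rwa [congr_symm_congr]

end abstract

variable {F : Type*} [Field F]
variable {ι : Type} [Fintype ι] [DecidableEq ι]

theorem SimR.polar {ι' : Type} [Fintype ι'] [DecidableEq ι'] {q : (ι → F) → F}
    {q' : (ι' → F) → F} {B : Matrix ι ι' F} {B' : Matrix ι' ι F} {κ : F}
    (h : SimR q q' B B' κ) (u v : ι' → F) :
    QuadraticMap.polar q (B *ᵥ u) (B *ᵥ v) = κ * QuadraticMap.polar q' u v := by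
  unfold QuadraticMap.polar
  rw [← Matrix.mulVec_add, h.sim, h.sim, h.sim]
  ring

theorem SimR.nondeg {ι' : Type} [Fintype ι'] [DecidableEq ι'] {Q : QuadraticForm F (ι → F)}
    {Q' : QuadraticForm F (ι' → F)} {B : Matrix ι ι' F} {B' : Matrix ι' ι F} {κ : F}
    (h : SimR ⇑Q ⇑Q' B B' κ) (hQ : (QuadraticMap.polarBilin Q).Nondegenerate) :
    (QuadraticMap.polarBilin Q').Nondegenerate := by
  rw [Cfsg.Agent.Lib.Helper42Quad.nondeg_iff] at hQ ⊢
  intro x hx
  have h1 : B *ᵥ x = 0 := by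
    apply hQ
    intro y
    have h2 : y = B *ᵥ (B' *ᵥ y) := by rw [Matrix.mulVec_mulVec, h.mul, Matrix.one_mulVec]
    rw [h2, SimR.polar h, hx, mul_zero]
  have := congrArg (fun z => B' *ᵥ z) h1
  simpa only [Matrix.mulVec_mulVec, h.mul', Matrix.one_mulVec, Matrix.mulVec_zero] using this

theorem nice_odd [Fintype F] (h2 : (2 : F) ≠ 0) (Q : QuadraticForm F (ι → F))
    (hQ : (QuadraticMap.polarBilin Q).Nondegenerate) (hodd : Odd (Fintype.card ι)) : Nice Q := by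
  by_cases h1 : Fintype.card ι = 1
  · exact nice_of_one h2 Q hQ h1
  have h3 : 3 ≤ Fintype.card ι := by
    obtain ⟨k, hk⟩ := hodd
    omega
  apply nice_of_three h2 Q hQ hodd h3
  by_cases h5 : 5 ≤ Fintype.card ι
  · exact Cfsg.Agent.Lib.Helper97LBO4.TT_H3_five h2 Q hQ h5
  · have h4 : Fintype.card ι = 3 := by
      obtain ⟨k, hk⟩ := hodd
      omega
    exact Cfsg.Agent.Lib.Helper40LBO5.TT_H3_wittone h2 Q hQ h3
      (Cfsg.Agent.Lib.Helper40LBO7.wittOne_of_three Q hQ h4)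

theorem cAut_eq_of_smul [Fintype F] {Q : QuadraticForm F (ι → F)} (g g₁ : ↥(GO Q)) (ε : Fˣ)
    (h : ((g : GL ι F) : Matrix ι ι F) = (ε : F) • ((g₁ : GL ι F) : Matrix ι ι F)) :
    cAut ⇑Q g = cAut ⇑Q g₁ := by
  have h1 : g = scal Q ε * g₁ := by
    apply Subtype.ext
    apply Units.ext
    rw [Subgroup.coe_mul, Units.val_mul, coe_scal, h, Matrix.smul_mul, Matrix.one_mul]
  rw [h1, map_mul, cAut_eq_one_of_scalar Q _ (scal_mem Q ε), one_mul]

section caseA

variable {κ₁ κ₂ : Type} [Fintype κ₁] [DecidableEq κ₁] [Fintype κ₂] [DecidableEq κ₂]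

/-- linear versions of the embeddings -/
def ilL : (κ₁ → F) →ₗ[F] (κ₁ ⊕ κ₂ → F) where
  toFun := il
  map_add' := il_add
  map_smul' := il_smul

def irL : (κ₂ → F) →ₗ[F] (κ₁ ⊕ κ₂ → F) where
  toFun := ir
  map_add' := ir_add
  map_smul' := ir_smul

theorem il_injective : Function.Injective (il : (κ₁ → F) → (κ₁ ⊕ κ₂ → F)) := by
  intro u v h
  have := congrArg (fun z : κ₁ ⊕ κ₂ → F => z ∘ Sum.inl) h
  simpa using this

theorem ir_injective : Function.Injective (ir : (κ₂ → F) → (κ₁ ⊕ κ₂ → F)) := by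
  intro u v h
  have := congrArg (fun z : κ₁ ⊕ κ₂ → F => z ∘ Sum.inr) h
  simpa using this

theorem polar_sim {Q : QuadraticForm F (ι → F)} {G : Matrix ι ι F} {μ : F}
    (h : ∀ v, Q (G *ᵥ v) = μ * Q v) (u v : ι → F) :
    QuadraticMap.polar ⇑Q (G *ᵥ u) (G *ᵥ v) = μ * QuadraticMap.polar ⇑Q u v := by
  unfold QuadraticMap.polar
  rw [← Matrix.mulVec_add, h, h, h]
  ring

theorem card_of_equiv (L : (κ₁ ⊕ κ₂ → F) ≃ₗ[F] (ι → F)) :
    Fintype.card κ₁ + Fintype.card κ₂ = Fintype.card ι := by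
  have := L.finrank_eq
  rw [Module.finrank_fintype_fun_eq_card, Module.finrank_fintype_fun_eq_card,
    Fintype.card_sum] at this
  exact this

theorem caseA_core [Fintype F] (h2 : (2 : F) ≠ 0) {Q : QuadraticForm F (ι → F)}
    (hQ : (QuadraticMap.polarBilin Q).Nondegenerate) (hx : ∃ x, Q x = 1) {n : ℕ}
    (hn : Fintype.card ι = 2 * n) (h4 : 4 ≤ n) (hsurj : Function.Surjective (sAut ⇑Q))
    (hTS : ∀ U : Submodule F (ι → F), TS Q U → finrank F U < n)
    (g : ↥(GO Q)) (hδ : delta Q hx n g ≠ 1)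
    (L : (κ₁ ⊕ κ₂ → F) ≃ₗ[F] (ι → F)) (ε : Fˣ)
    (h₁ : ∀ u, ((g : GL ι F) : Matrix ι ι F) *ᵥ L (il u) = (ε : F) • L (il u))
    (h₂ : ∀ v, ((g : GL ι F) : Matrix ι ι F) *ᵥ L (ir v) = -((ε : F) • L (ir v)))
    (h3 : 3 ≤ Fintype.card κ₁) : Balanced 2 (cAut ⇑Q g) := by
  set G := ((g : GL ι F) : Matrix ι ι F) with hG
  have hμ : ∀ v, Q (G *ᵥ v) = (mu Q hx g : F) * Q v := mu_spec Q hx g
  have hcard := card_of_equiv L
  -- the multiplier
  have hμε : (mu Q hx g : F) = ε * ε := by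
    by_contra hne
    have z1 : ∀ u, Q (L (il u)) = 0 := by
      intro u
      have h5 := hμ (L (il u))
      rw [h₁, QuadraticMap.map_smul, smul_eq_mul] at h5
      have h6 : ((mu Q hx g : F) - ε * ε) * Q (L (il u)) = 0 := by linear_combination -h5
      exact (mul_eq_zero.1 h6).resolve_left (sub_ne_zero.2 hne)
    have z2 : ∀ u, Q (L (ir u)) = 0 := by
      intro u
      have h5 := hμ (L (ir u))
      rw [h₂, QuadraticMap.map_neg, QuadraticMap.map_smul, smul_eq_mul] at h5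
      have h6 : ((mu Q hx g : F) - ε * ε) * Q (L (ir u)) = 0 := by linear_combination -h5
      exact (mul_eq_zero.1 h6).resolve_left (sub_ne_zero.2 hne)
    have t1 := hTS (LinearMap.range (L.toLinearMap ∘ₗ (ilL : (κ₁ → F) →ₗ[F] (κ₁ ⊕ κ₂ → F)))) (by
      rintro _ ⟨u, rfl⟩
      exact z1 u)
    have t2 := hTS (LinearMap.range (L.toLinearMap ∘ₗ (irL : (κ₂ → F) →ₗ[F] (κ₁ ⊕ κ₂ → F)))) (by
      rintro _ ⟨u, rfl⟩
      exact z2 u)
    rw [LinearMap.finrank_range_of_inj (f := L.toLinearMap ∘ₗ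
        (ilL : (κ₁ → F) →ₗ[F] (κ₁ ⊕ κ₂ → F))) (L.injective.comp il_injective),
      Module.finrank_fintype_fun_eq_card] at t1
    rw [LinearMap.finrank_range_of_inj (f := L.toLinearMap ∘ₗ
        (irL : (κ₂ → F) →ₗ[F] (κ₁ ⊕ κ₂ → F))) (L.injective.comp ir_injective),
      Module.finrank_fintype_fun_eq_card] at t2
    omega
  obtain ⟨P, P', hPP', hP'P, hP⟩ := Cfsg.Agent.Lib.Helper18GfA.exists_matrix_of_equiv L
  set Q₁ : QuadraticForm F (κ₁ → F) :=
    Q.comp (L.toLinearMap ∘ₗ (ilL : (κ₁ → F) →ₗ[F] (κ₁ ⊕ κ₂ → F))) with hQ₁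
  set Q₂ : QuadraticForm F (κ₂ → F) :=
    Q.comp (L.toLinearMap ∘ₗ (irL : (κ₂ → F) →ₗ[F] (κ₁ ⊕ κ₂ → F))) with hQ₂
  have hε0 : (ε : F) ≠ 0 := ε.ne_zero
  have horth : ∀ u v, QuadraticMap.polar ⇑Q (L (il u)) (L (ir v)) = 0 := by
    intro u v
    have h5 := polar_sim hμ (L (il u)) (L (ir v))
    rw [h₁, h₂, QuadraticMap.polar_neg_right, QuadraticMap.polar_smul_left,
      QuadraticMap.polar_smul_right, hμε, smul_eq_mul, smul_eq_mul] at h5
    have h6 : (2 * (ε * ε) : F) * QuadraticMap.polar ⇑Q (L (il u)) (L (ir v)) = 0 := by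
      linear_combination -h5
    exact (mul_eq_zero.1 h6).resolve_left (mul_ne_zero h2 (mul_ne_zero hε0 hε0))
  have h : SimR ⇑Q ⇑(Qsum Q₁ Q₂) P P' 1 := by
    refine ⟨hPP', hP'P, one_ne_zero, fun z => ?_⟩
    rw [hP, one_mul, Qsum_apply]
    conv_lhs => rw [← il_add_ir z, map_add, QuadraticMap.map_add ⇑Q, horth, add_zero]
    rfl
  have hQ' := SimR.nondeg h hQ
  have hx' : ∃ x, Qsum Q₁ Q₂ x = 1 := by
    obtain ⟨x, hx⟩ := hx
    refine ⟨P' *ᵥ x, ?_⟩
    have := h.sim (P' *ᵥ x)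
    rw [Matrix.mulVec_mulVec, hPP', Matrix.one_mulVec, hx, one_mul] at this
    exact this.symm
  have hGeq : G = (ε : F) • (((cgR h (incO _ (g0 Q₁ Q₂)) : ↥(GO Q)) : GL ι F) : Matrix ι ι F) := by
    rw [coe_cgR, coe_cjR, coe_incO]
    have h5 : G * P = (ε : F) • (P * (((g0 Q₁ Q₂ : ↥(isometryGroup F ⇑(Qsum Q₁ Q₂))) :
        GL (κ₁ ⊕ κ₂) F) : Matrix (κ₁ ⊕ κ₂) (κ₁ ⊕ κ₂) F)) := by
      apply Matrix.ext_of_mulVec_single
      intro k
      generalize (Pi.single k 1 : κ₁ ⊕ κ₂ → F) = z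
      rw [Matrix.smul_mulVec, ← Matrix.mulVec_mulVec, ← Matrix.mulVec_mulVec, hP, hP]
      conv_lhs => rw [← il_add_ir z, map_add, Matrix.mulVec_add, h₁, h₂]
      conv_rhs => rw [← il_add_ir z, Matrix.mulVec_add, g0_il, g0_ir, map_add, map_neg, smul_add,
        smul_neg]
    calc G = G * (P * P') := by rw [hPP', Matrix.mul_one]
      _ = (G * P) * P' := by rw [Matrix.mul_assoc]
      _ = _ := by rw [h5, Matrix.smul_mul]
  have hodd₂ : Odd (Fintype.card κ₂) := by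
    by_contra hev
    rw [Nat.not_odd_iff_even] at hev
    apply hδ
    have h5 : g = scal Q ε * cgR h (incO _ (g0 Q₁ Q₂)) := by
      apply Subtype.ext
      apply Units.ext
      rw [Subgroup.coe_mul, Units.val_mul, coe_scal, ← hG, hGeq, Matrix.smul_mul, Matrix.one_mul]
    rw [h5, map_mul, delta_scal Q hx hn, one_mul, delta_cgR h hx hx', delta_incO]
    apply Units.ext
    rw [detO_apply, coe_g0, Matrix.det_fromBlocks_zero₂₁, Matrix.det_one, one_mul, Matrix.det_neg,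
      Matrix.det_one, mul_one, hev.neg_one_pow, Units.val_one]
  have hodd₁ : Odd (Fintype.card κ₁) := by
    obtain ⟨k, hk⟩ := hodd₂
    exact ⟨n - k - 1, by omega⟩
  have N₁ := nice_odd h2 Q₁ (nondeg_left Q₁ Q₂ hQ') hodd₁
  have N₂ := nice_odd h2 Q₂ (nondeg_right Q₁ Q₂ hQ') hodd₂
  have hB := modelA Q₁ Q₂ h2 hQ' (by rw [Fintype.card_sum]; omega) h3 N₁ N₂
    (sAut_surjective_of_simR h hsurj)
  unfold X0 at hB
  rw [sAut_inlO] at hB
  have hB' := Balanced.congr (psiR h) hB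
  rw [congr_cAutR] at hB'
  rwa [cAut_eq_of_smul g _ ε hGeq]

theorem exists_split (V₁ V₂ : Submodule F (ι → F)) (h : IsCompl V₁ V₂) :
    ∃ (n₁ n₂ : ℕ) (L : (Fin n₁ ⊕ Fin n₂ → F) ≃ₗ[F] (ι → F)), n₁ = finrank F V₁ ∧
      (∀ u, L (il u) ∈ V₁) ∧ (∀ v, L (ir v) ∈ V₂) := by
  refine ⟨finrank F V₁, finrank F V₂,
    (LinearEquiv.sumArrowLequivProdArrow (Fin (finrank F V₁)) (Fin (finrank F V₂)) F F).trans
      (((finBasis F V₁).equivFun.symm.prodCongr (finBasis F V₂).equivFun.symm).trans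
        (Submodule.prodEquivOfIsCompl V₁ V₂ h)), rfl, fun u => ?_, fun v => ?_⟩
  · have e : ((LinearEquiv.sumArrowLequivProdArrow (Fin (finrank F V₁)) (Fin (finrank F V₂)) F F).trans
      (((finBasis F V₁).equivFun.symm.prodCongr (finBasis F V₂).equivFun.symm).trans
        (Submodule.prodEquivOfIsCompl V₁ V₂ h))) (il u)
        = (((finBasis F V₁).equivFun.symm u : ↥V₁) : ι → F) +
          (((finBasis F V₂).equivFun.symm 0 : ↥V₂) : ι → F) := rfl
    rw [e, map_zero, Submodule.coe_zero, add_zero]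
    exact Subtype.property _
  · have e : ((LinearEquiv.sumArrowLequivProdArrow (Fin (finrank F V₁)) (Fin (finrank F V₂)) F F).trans
      (((finBasis F V₁).equivFun.symm.prodCongr (finBasis F V₂).equivFun.symm).trans
        (Submodule.prodEquivOfIsCompl V₁ V₂ h))) (ir v)
        = (((finBasis F V₁).equivFun.symm 0 : ↥V₁) : ι → F) +
          (((finBasis F V₂).equivFun.symm v : ↥V₂) : ι → F) := rfl
    rw [e, map_zero, Submodule.coe_zero, zero_add]
    exact Subtype.property _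

/-- the eigenspace -/
def eig (G : Matrix ι ι F) (l : F) : Submodule F (ι → F) where
  carrier := {v | G *ᵥ v = l • v}
  add_mem' := by
    intro a b ha hb
    show G *ᵥ (a + b) = l • (a + b)
    rw [Matrix.mulVec_add, ha, hb, smul_add]
  zero_mem' := by
    show G *ᵥ 0 = l • (0 : ι → F)
    rw [Matrix.mulVec_zero, smul_zero]
  smul_mem' := by
    intro c a ha
    show G *ᵥ (c • a) = l • (c • a)
    rw [Matrix.mulVec_smul, ha, smul_comm]

theorem mem_eig {G : Matrix ι ι F} {l : F} {v : ι → F} : v ∈ eig G l ↔ G *ᵥ v = l • v := Iff.rfl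

theorem isCompl_eig (h2 : (2 : F) ≠ 0) {G : Matrix ι ι F} {l : F} (hl : l ≠ 0)
    (hG : G * G = (l * l) • 1) : IsCompl (eig G l) (eig G (-l)) := by
  have hGG : ∀ v, G *ᵥ (G *ᵥ v) = (l * l) • v := by
    intro v
    rw [Matrix.mulVec_mulVec, hG, Matrix.smul_mulVec, Matrix.one_mulVec]
  constructor
  · rw [Submodule.disjoint_def]
    intro v h1 h3
    rw [mem_eig] at h1 h3
    rw [h1] at h3
    funext k
    have := congrFun h3 k
    simp only [Pi.smul_apply, smul_eq_mul, neg_mul] at this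
    have h4 : (2 * l) * v k = 0 := by linear_combination this
    exact (mul_eq_zero.1 h4).resolve_left (mul_ne_zero h2 hl)
  · rw [codisjoint_iff, eq_top_iff]
    intro v _
    have e : v = (2 * l)⁻¹ • (G *ᵥ v + l • v) + (2 * l)⁻¹ • (l • v - G *ᵥ v) := by
      rw [← smul_add]
      have : G *ᵥ v + l • v + (l • v - G *ᵥ v) = (2 * l) • v := by
        rw [mul_smul, two_smul]
        abel
      rw [this, smul_smul, inv_mul_cancel₀ (mul_ne_zero h2 hl), one_smul]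
    rw [e]
    apply Submodule.add_mem_sup
    · apply Submodule.smul_mem
      rw [mem_eig, Matrix.mulVec_add, hGG, Matrix.mulVec_smul, smul_add, mul_smul, add_comm]
    · apply Submodule.smul_mem
      rw [mem_eig, Matrix.mulVec_sub, hGG, Matrix.mulVec_smul, smul_sub, mul_smul, neg_smul,
        neg_smul]
      abel

theorem caseA [Fintype F] (h2 : (2 : F) ≠ 0) {Q : QuadraticForm F (ι → F)}
    (hQ : (QuadraticMap.polarBilin Q).Nondegenerate) (hx : ∃ x, Q x = 1) {n : ℕ}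
    (hn : Fintype.card ι = 2 * n) (h4 : 4 ≤ n) (hsurj : Function.Surjective (sAut ⇑Q))
    (hTS : ∀ U : Submodule F (ι → F), TS Q U → finrank F U < n)
    (g : ↥(GO Q)) (hδ : delta Q hx n g ≠ 1) (l : Fˣ)
    (hg : ((g : GL ι F) : Matrix ι ι F) * ((g : GL ι F) : Matrix ι ι F) = ((l : F) * l) • 1) :
    Balanced 2 (cAut ⇑Q g) := by
  have hc := isCompl_eig h2 l.ne_zero hg
  by_cases h3 : 3 ≤ finrank F (eig ((g : GL ι F) : Matrix ι ι F) (l : F))
  · obtain ⟨n₁, n₂, L, hn₁, hL₁, hL₂⟩ := exists_split _ _ hc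
    apply caseA_core h2 hQ hx hn h4 hsurj hTS g hδ L l (fun u => hL₁ u)
    · intro v
      rw [mem_eig.1 (hL₂ v), neg_smul]
    · rw [Fintype.card_fin, hn₁]
      exact h3
  · obtain ⟨n₁, n₂, L, hn₁, hL₁, hL₂⟩ := exists_split _ _ hc.symm
    have hsum := Submodule.finrank_add_eq_of_isCompl hc
    rw [Module.finrank_fintype_fun_eq_card, hn] at hsum
    apply caseA_core h2 hQ hx hn h4 hsurj hTS g hδ L (-l)
    · intro u
      rw [mem_eig.1 (hL₁ u), Units.val_neg]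
    · intro v
      rw [mem_eig.1 (hL₂ v), Units.val_neg, neg_smul, neg_neg]
    · rw [Fintype.card_fin, hn₁]
      omega

end caseA

end Cfsg.Agent.Lib.Helper18BalL
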