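import Mathlib
import Cfsg.Agent.Lib.Helper18BalL

set_option autoImplicit false
set_option linter.unusedSectionVars false

/-! Local balance: reduction of similitudes with non-square square to model B (helper18). -/

namespace Cfsg.Agent.Lib.Helper18BalM

open Cfsg Matrix Module
open scoped MatrixGroups
open Cfsg.Agent.Lib.Helper49Orth Cfsg.Agent.Lib.Helper49Center Cfsg.Agent.Lib.Helper49Eich
  Cfsg.Agent.Lib.Helper49EichGen
  Cfsg.Agent.Lib.Helper51OrthAut Cfsg.Agent.Lib.Helper51OrthIdx Cfsg.Agent.Lib.Helper51OrthIdx2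
  Cfsg.Agent.Lib.Helper18GamA Cfsg.Agent.Lib.Helper18GamB Cfsg.Agent.Lib.Helper18RecA
  Cfsg.Agent.Lib.Helper18BalA Cfsg.Agent.Lib.Helper18BalB Cfsg.Agent.Lib.Helper18BalC
  Cfsg.Agent.Lib.Helper18BalE Cfsg.Agent.Lib.Helper18BalI Cfsg.Agent.Lib.Helper18BalJ
  Cfsg.Agent.Lib.Helper18BalK Cfsg.Agent.Lib.Helper18BalL
  Cfsg.Agent.Lib.Helper42LBDefs Cfsg.Agent.Lib.Helper18Hyp

variable {F : Type*} [Field F] {c : F}
variable {ι : Type} [Fintype ι] [DecidableEq ι]

local notation "K" => QuadraticAlgebra F c 0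

theorem exists_Kstruct [Finite F] [hF : Fact (∀ r : F, r ^ 2 ≠ c + 0 * r)] (G : Matrix ι ι F)
    (hG : G * G = c • 1) :
    ∃ (d : ℕ) (L : (Fin d ⊕ Fin d → F) ≃ₗ[F] (ι → F)), ∀ v, G *ᵥ L v = L (Jm (c := c) *ᵥ v) := by
  let φ : K →ₐ[F] Module.End F (ι → F) := QuadraticAlgebra.lift ⟨Matrix.toLin' G, by
    rw [zero_smul, add_zero, Module.End.mul_eq_comp, ← Matrix.toLin'_mul, hG]
    ext v
    simp⟩
  let _ : Module K (ι → F) := Module.compHom (ι → F) (φ : K →+* Module.End F (ι → F))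
  have hsm : ∀ (z : K) (v : ι → F), z • v = z.re • v + z.im • (G *ᵥ v) := by
    intro z v
    show φ z v = _
    simp [φ]
  have : Module.Finite K (ι → F) := Module.Finite.of_finite
  let e := (finBasis K (ι → F)).equivFun
  refine ⟨finrank K (ι → F), LinearEquiv.symm
    { toFun := fun v => thi (e v)
      invFun := fun w => e.symm (th (c := c) w)
      map_add' := fun u v => by rw [map_add, thi_add]
      map_smul' := fun a v => by
        have h1 : a • v = (algebraMap F K a) • v := by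
          rw [hsm]
          simp
        rw [h1, map_smul, algebraMap_smul, thi_smul]
        rfl
      left_inv := fun v => by
        show e.symm (th (c := c) (thi (e v))) = v
        rw [th_thi, LinearEquiv.symm_apply_apply]
      right_inv := fun w => by
        show thi (e (e.symm (th (c := c) w))) = w
        rw [LinearEquiv.apply_symm_apply, thi_th] }, fun w => ?_⟩
  show G *ᵥ e.symm (th (c := c) w) = e.symm (th (c := c) (Jm (c := c) *ᵥ w))
  rw [th_Jm, map_smul, hsm]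
  simp

section Q1

variable {κ : Type} [Fintype κ] [DecidableEq κ]
variable [hF : Fact (∀ r : F, r ^ 2 ≠ c + 0 * r)]
variable (Q' : QuadraticForm F (κ ⊕ κ → F))

omit hF in
theorem JJ (v : κ ⊕ κ → F) : Jm (c := c) *ᵥ (Jm (c := c) *ᵥ v) = c • v := by
  rw [Matrix.mulVec_mulVec, Jm_mul_Jm, Matrix.smul_mulVec, Matrix.one_mulVec]

theorem adj (hJ : ∀ v, Q' (Jm (c := c) *ᵥ v) = c * Q' v) (u v : κ ⊕ κ → F) :
    QuadraticMap.polar ⇑Q' (Jm (c := c) *ᵥ u) v = QuadraticMap.polar ⇑Q' u (Jm (c := c) *ᵥ v) := by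
  have h := polar_sim hJ u (Jm (c := c) *ᵥ v)
  rw [JJ, QuadraticMap.polar_smul_right, smul_eq_mul] at h
  exact mul_left_cancel₀ (c_ne_zero (c := c)) h

omit hF in
theorem thi_smulK (ζ : K) (z : κ → K) :
    thi (ζ • z) = ζ.re • thi z + ζ.im • (Jm (c := c) *ᵥ thi z) := by
  apply th_injective (c := c)
  rw [th_thi, th_add, th_smul, th_smul, th_Jm, th_thi]
  funext k
  apply QuadraticAlgebra.ext
  · simp
    ring
  · simp

/-- the `K`-valued form -/
def f1 (z : κ → K) : K :=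
  ⟨Q' (thi z), (2 * c)⁻¹ * QuadraticMap.polar ⇑Q' (thi z) (Jm (c := c) *ᵥ thi z)⟩

theorem polar_f1 (h2 : (2 : F) ≠ 0) (hJ : ∀ v, Q' (Jm (c := c) *ᵥ v) = c * Q' v) (z z' : κ → K) :
    QuadraticMap.polar (f1 (c := c) Q') z z' = ⟨QuadraticMap.polar ⇑Q' (thi z) (thi z'),
      c⁻¹ * QuadraticMap.polar ⇑Q' (thi z) (Jm (c := c) *ᵥ thi z')⟩ := by
  have hc := c_ne_zero (c := c)
  apply QuadraticAlgebra.ext
  · show Q' (thi (z + z')) - Q' (thi z) - Q' (thi z') = _
    rw [thi_add]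
    rfl
  · show (2 * c)⁻¹ * QuadraticMap.polar ⇑Q' (thi (z + z')) (Jm (c := c) *ᵥ thi (z + z'))
      - (2 * c)⁻¹ * QuadraticMap.polar ⇑Q' (thi z) (Jm (c := c) *ᵥ thi z)
      - (2 * c)⁻¹ * QuadraticMap.polar ⇑Q' (thi z') (Jm (c := c) *ᵥ thi z') = _
    rw [thi_add, Matrix.mulVec_add, QuadraticMap.polar_add_left, QuadraticMap.polar_add_right,
      QuadraticMap.polar_add_right,
      QuadraticMap.polar_comm ⇑Q' (thi z') (Jm (c := c) *ᵥ thi z), adj Q' hJ]
    field_simp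
    ring

theorem f1_smul (h2 : (2 : F) ≠ 0) (hJ : ∀ v, Q' (Jm (c := c) *ᵥ v) = c * Q' v) (ζ : K)
    (z : κ → K) : f1 (c := c) Q' (ζ • z) = (ζ * ζ) • f1 (c := c) Q' z := by
  have hc := c_ne_zero (c := c)
  set v := thi z with hv
  have e1 : QuadraticMap.polar ⇑Q' (Jm (c := c) *ᵥ v) v
      = QuadraticMap.polar ⇑Q' v (Jm (c := c) *ᵥ v) := QuadraticMap.polar_comm _ _ _
  have e2 : QuadraticMap.polar ⇑Q' v v = 2 * Q' v := by
    rw [QuadraticMap.polar_self, two_smul, two_mul]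
  have e3 : QuadraticMap.polar ⇑Q' (Jm (c := c) *ᵥ v) (Jm (c := c) *ᵥ v) = c * (2 * Q' v) := by
    rw [polar_sim hJ, e2]
  apply QuadraticAlgebra.ext
  · show Q' (thi (ζ • z)) = ((ζ * ζ) * f1 (c := c) Q' z).re
    rw [thi_smulK, ← hv, QuadraticMap.map_add ⇑Q', QuadraticMap.map_smul, QuadraticMap.map_smul, hJ,
      QuadraticMap.polar_smul_left, QuadraticMap.polar_smul_right, QuadraticAlgebra.re_mul,
      QuadraticAlgebra.re_mul, QuadraticAlgebra.im_mul]
    show _ = _ * Q' v + c * _ * ((2 * c)⁻¹ * QuadraticMap.polar ⇑Q' v (Jm (c := c) *ᵥ v))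
    simp only [smul_eq_mul]
    field_simp
    ring
  · show (2 * c)⁻¹ * QuadraticMap.polar ⇑Q' (thi (ζ • z)) (Jm (c := c) *ᵥ thi (ζ • z))
      = ((ζ * ζ) * f1 (c := c) Q' z).im
    rw [thi_smulK, ← hv, Matrix.mulVec_add, Matrix.mulVec_smul, Matrix.mulVec_smul, JJ,
      QuadraticAlgebra.im_mul, QuadraticAlgebra.re_mul, QuadraticAlgebra.im_mul]
    show _ = _ * ((2 * c)⁻¹ * QuadraticMap.polar ⇑Q' v (Jm (c := c) *ᵥ v)) + _ * Q' v
      + 0 * _ * ((2 * c)⁻¹ * QuadraticMap.polar ⇑Q' v (Jm (c := c) *ᵥ v))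
    simp only [QuadraticMap.polar_add_left, QuadraticMap.polar_add_right,
      QuadraticMap.polar_smul_left, QuadraticMap.polar_smul_right, smul_eq_mul, e1, e2, e3]
    field_simp
    ring

/-- the `K`-form whose real part is `Q'` -/
def Q1 (h2 : (2 : F) ≠ 0) (hJ : ∀ v, Q' (Jm (c := c) *ᵥ v) = c * Q' v) :
    QuadraticForm (QuadraticAlgebra F c 0) (κ → QuadraticAlgebra F c 0) :=
  QuadraticMap.ofPolar (f1 (c := c) Q') (f1_smul Q' h2 hJ)
    (fun x x' y => by
      rw [polar_f1 Q' h2 hJ, polar_f1 Q' h2 hJ, polar_f1 Q' h2 hJ, thi_add,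
        QuadraticMap.polar_add_left, QuadraticMap.polar_add_left]
      apply QuadraticAlgebra.ext
      · rfl
      · show _ = c⁻¹ * _ + c⁻¹ * _
        rw [mul_add])
    (fun ζ x y => by
      have hc := c_ne_zero (c := c)
      rw [polar_f1 Q' h2 hJ, polar_f1 Q' h2 hJ, thi_smulK, QuadraticMap.polar_add_left,
        QuadraticMap.polar_add_left, QuadraticMap.polar_smul_left, QuadraticMap.polar_smul_left,
        QuadraticMap.polar_smul_left, QuadraticMap.polar_smul_left, polar_sim hJ, adj Q' hJ,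
        smul_eq_mul, smul_eq_mul, smul_eq_mul, smul_eq_mul, smul_eq_mul]
      apply QuadraticAlgebra.ext
      · rw [QuadraticAlgebra.re_mul]
        show _ = ζ.re * _ + c * ζ.im * (c⁻¹ * _)
        field_simp
      · rw [QuadraticAlgebra.im_mul]
        show _ = ζ.re * (c⁻¹ * _) + ζ.im * _ + 0 * ζ.im * (c⁻¹ * _)
        field_simp
        ring)

theorem Qre_Q1 (h2 : (2 : F) ≠ 0) (hJ : ∀ v, Q' (Jm (c := c) *ᵥ v) = c * Q' v) (v : κ ⊕ κ → F) :
    Qre (Q1 Q' h2 hJ) v = Q' v := by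
  rw [Qre_apply]
  show Q' (thi (th (c := c) v)) = _
  rw [thi_th]

theorem nondeg_Q1 (h2 : (2 : F) ≠ 0) (hJ : ∀ v, Q' (Jm (c := c) *ᵥ v) = c * Q' v)
    (hQ' : (QuadraticMap.polarBilin Q').Nondegenerate) :
    (QuadraticMap.polarBilin (Q1 Q' h2 hJ)).Nondegenerate := by
  rw [Cfsg.Agent.Lib.Helper42Quad.nondeg_iff] at hQ' ⊢
  intro x hx
  have h1 : thi x = 0 := by
    apply hQ'
    intro y
    have h3 := hx (th (c := c) y)
    have h4 : QuadraticMap.polar ⇑(Q1 Q' h2 hJ) x (th (c := c) y)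
        = QuadraticMap.polar (f1 (c := c) Q') x (th (c := c) y) := rfl
    rw [h4, polar_f1 Q' h2 hJ, thi_th] at h3
    exact congrArg QuadraticAlgebra.re h3
  rw [← th_thi x, h1, th_zero]

end Q1

theorem det_Jm (d : ℕ) :
    (Jm (c := c) : Matrix (Fin d ⊕ Fin d) (Fin d ⊕ Fin d) F).det = c ^ d * (-1) ^ d := by
  have : (Jm (c := c) : Matrix (Fin d ⊕ Fin d) (Fin d ⊕ Fin d) F)
      = Cfsg.Agent.Lib.Helper51OrthPlus.dMat d c * Cfsg.Agent.Lib.Helper51OrthPlus.wMat d := by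
    unfold Jm Cfsg.Agent.Lib.Helper51OrthPlus.dMat Cfsg.Agent.Lib.Helper51OrthPlus.wMat
    rw [fromBlocks_multiply]
    simp
  rw [this, Matrix.det_mul, Cfsg.Agent.Lib.Helper51OrthPlus.det_dMat,
    Cfsg.Agent.Lib.Helper51OrthPlus.det_wMat]

theorem caseB [Fintype F] (h2 : (2 : F) ≠ 0) {Q : QuadraticForm F (ι → F)}
    (hQ : (QuadraticMap.polarBilin Q).Nondegenerate) (hx : ∃ x, Q x = 1) {n : ℕ}
    (hn : Fintype.card ι = 2 * n) (h4 : 4 ≤ n) (hsurj : Function.Surjective (sAut ⇑Q))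
    (g : ↥(GO Q)) (hδ : delta Q hx n g ≠ 1) (c : Fˣ) (hc : ¬ IsSquare (c : F))
    (hg : ((g : GL ι F) : Matrix ι ι F) * ((g : GL ι F) : Matrix ι ι F) = (c : F) • 1) :
    Balanced 2 (cAut ⇑Q g) := by
  have hF : Fact (∀ r : F, r ^ 2 ≠ (c : F) + 0 * r) := ⟨fun r h => hc ⟨r, by linear_combination -h⟩⟩
  set G := ((g : GL ι F) : Matrix ι ι F) with hG
  obtain ⟨d, L, hL⟩ := exists_Kstruct G hg
  have hd : d = n := by
    have := card_of_equiv L
    rw [Fintype.card_fin, hn] at this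
    omega
  subst hd
  obtain ⟨P, P', hPP', hP'P, hP⟩ := Cfsg.Agent.Lib.Helper18GfA.exists_matrix_of_equiv L
  have hμ : ∀ v, Q (G *ᵥ v) = (mu Q hx g : F) * Q v := mu_spec Q hx g
  have hGeq : G = P * (Jm (c := (c : F)) : Matrix (Fin d ⊕ Fin d) (Fin d ⊕ Fin d) F) * P' := by
    have h5 : G * P = P * (Jm (c := (c : F)) : Matrix (Fin d ⊕ Fin d) (Fin d ⊕ Fin d) F) := by
      apply Matrix.ext_of_mulVec_single
      intro k
      rw [← Matrix.mulVec_mulVec, ← Matrix.mulVec_mulVec, hP, hP, hL]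
    calc G = G * (P * P') := by rw [hPP', Matrix.mul_one]
      _ = (G * P) * P' := by rw [Matrix.mul_assoc]
      _ = _ := by rw [h5]
  have hdet : Matrix.GeneralLinearGroup.det (g : GL ι F) = c ^ d * (-1) ^ d := by
    have h5 : (g : GL ι F) = cjR hPP' hP'P (JGL (c := (c : F))) := by
      apply Units.ext
      rw [coe_cjR, coe_JGL]
      exact hGeq
    rw [h5, det_cjR]
    apply Units.ext
    rw [Matrix.GeneralLinearGroup.val_det_apply, coe_JGL, det_Jm]
    simp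
  have hμμ : (mu Q hx g : F) * mu Q hx g = c * c := by
    obtain ⟨x, hx1⟩ := hx
    have h5 := hμ (G *ᵥ x)
    rw [hμ x, Matrix.mulVec_mulVec, hg, Matrix.smul_mulVec, Matrix.one_mulVec,
      QuadraticMap.map_smul, hx1, smul_eq_mul, mul_one, mul_one] at h5
    exact h5.symm
  have hcases : mu Q hx g = c ∨ mu Q hx g = -c := by
    have h5 : ((mu Q hx g : F) - c) * ((mu Q hx g : F) + c) = 0 := by linear_combination hμμ
    rcases mul_eq_zero.1 h5 with h6 | h6
    · left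
      exact Units.ext (sub_eq_zero.1 h6)
    · right
      apply Units.ext
      rw [Units.val_neg]
      linear_combination h6
  rcases hcases with hm | hm
  · have hodd : Odd d := by
      by_contra hev
      rw [Nat.not_odd_iff_even] at hev
      apply hδ
      rw [delta_apply, hdet, hm, hev.neg_one_pow, mul_one, inv_pow, mul_inv_cancel]
    have hd5 : 5 ≤ d := by
      obtain ⟨k, hk⟩ := hodd
      omega
    set Q' : QuadraticForm F (Fin d ⊕ Fin d → F) := Q.comp L.toLinearMap with hQ'def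
    have hJ : ∀ v, Q' (Jm (c := (c : F)) *ᵥ v) = (c : F) * Q' v := by
      intro v
      show Q (L (Jm (c := (c : F)) *ᵥ v)) = (c : F) * Q (L v)
      rw [← hL, hμ, hm]
    have h : SimR ⇑Q ⇑(Qre (Q1 Q' h2 hJ)) P P' 1 := by
      refine ⟨hPP', hP'P, one_ne_zero, fun z => ?_⟩
      rw [hP, one_mul, Qre_Q1]
      rfl
    have h' : SimR ⇑Q ⇑Q' P P' 1 := by
      refine ⟨hPP', hP'P, one_ne_zero, fun z => ?_⟩
      rw [hP, one_mul]
      rfl
    have hQ₁ := nondeg_Q1 Q' h2 hJ (SimR.nondeg h' hQ)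
    have hcardd : Fintype.card (Fin d) = d := Fintype.card_fin d
    have hB := modelB (Q1 Q' h2 hJ) h2 hQ₁ (by rw [hcardd]; exact hd5) (by rw [hcardd]; exact hodd)
      (Cfsg.Agent.Lib.Helper97LBO4.TT_H3_five (two_ne_zero_K h2) _ hQ₁ (by rw [hcardd]; exact hd5))
      (sAut_surjective_of_simR h hsurj)
    unfold X0B at hB
    rw [sAut_inlO] at hB
    have hB' := Balanced.congr (psiR h) hB
    rw [congr_cAutR] at hB'
    have h6 : cgR h (JG (Q1 Q' h2 hJ)) = g := by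
      apply Subtype.ext
      apply Units.ext
      rw [coe_cgR, coe_cjR]
      exact hGeq.symm
    rwa [h6] at hB'
  · exfalso
    apply hδ
    rw [delta_apply, hdet, hm, ← mul_pow, ← mul_pow]
    have : c * -1 * (-c)⁻¹ = 1 := by
      rw [mul_neg_one, mul_inv_cancel]
    rw [this, one_pow]

/-- **The graph case.** -/
theorem graph_case [Fintype F] (h2 : (2 : F) ≠ 0) {Q : QuadraticForm F (ι → F)}
    (hQ : (QuadraticMap.polarBilin Q).Nondegenerate) (hx : ∃ x, Q x = 1) {n : ℕ}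
    (hn : Fintype.card ι = 2 * n) (h4 : 4 ≤ n) (hsurj : Function.Surjective (sAut ⇑Q))
    (hTS : ∀ U : Submodule F (ι → F), TS Q U → finrank F U < n)
    (g : ↥(GO Q)) (hδ : delta Q hx n g ≠ 1) (hg2 : cAut ⇑Q g ^ 2 = 1) :
    Balanced 2 (cAut ⇑Q g) := by
  have h1 : g * g ∈ (cAut ⇑Q).ker := by
    rw [MonoidHom.mem_ker, map_mul, ← pow_two, hg2]
  rw [ker_cAut_all Q hQ (by omega)] at h1
  obtain ⟨c, hc⟩ := exists_scal Q h1
  have hg : ((g : GL ι F) : Matrix ι ι F) * ((g : GL ι F) : Matrix ι ι F) = (c : F) • 1 := by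
    rw [← coe_scal Q c, ← hc]
    rfl
  by_cases hsq : IsSquare (c : F)
  · obtain ⟨l, hl⟩ := hsq
    have hl0 : l ≠ 0 := by
      rintro rfl
      rw [mul_zero] at hl
      exact c.ne_zero hl
    apply caseA h2 hQ hx hn h4 hsurj hTS g hδ (Units.mk0 l hl0)
    rw [hg, hl, Units.val_mk0]
  · exact caseB h2 hQ hx hn h4 hsurj g hδ c hsq hg

end Cfsg.Agent.Lib.Helper18BalM
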