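import Mathlib
import Cfsg.Agent.Lib.Helper18GfA

/-!
# Graph-field involutions of plus type groups: normal form
-/

set_option autoImplicit false
set_option linter.unusedSectionVars false

namespace Cfsg.Agent.Lib.Helper18GfB

open Cfsg Matrix Module
open scoped MatrixGroups
open Cfsg.Agent.Lib.Helper49Orth Cfsg.Agent.Lib.Helper49Forms Cfsg.Agent.Lib.Helper49Disc
  Cfsg.Agent.Lib.Helper49Gram
  Cfsg.Agent.Lib.Helper51OrthAut Cfsg.Agent.Lib.Helper51OrthKer Cfsg.Agent.Lib.Helper51OrthIdx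
  Cfsg.Agent.Lib.Helper18GamA Cfsg.Agent.Lib.Helper18GamB Cfsg.Agent.Lib.Helper18GamC
  Cfsg.Agent.Lib.Helper18GamD Cfsg.Agent.Lib.Helper18GamE Cfsg.Agent.Lib.Helper18GamF
  Cfsg.Agent.Lib.Helper18GamK
  Cfsg.Agent.Lib.Helper18LangA Cfsg.Agent.Lib.Helper18LangB Cfsg.Agent.Lib.Helper18RecA
  Cfsg.Agent.Lib.Helper18GfA
  Cfsg.Agent.Lib.Helper42Quad

section frame

variable {F : Type*} [Field F] {ι : Type} [Fintype ι] [DecidableEq ι]
variable {Q : QuadraticForm F (ι → F)}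

/-- Standing hypotheses on the preimage `D` of the inner-diagonal group. -/
structure DFr (D : Subgroup ↥(GO Q)) : Prop where
  index : D.index = 2
  zz : ZZ Q ≤ D
  normal : (D.map (inlO ⇑Q)).Normal

variable {D : Subgroup ↥(GO Q)}

theorem inlO_mem_iff (g : ↥(GO Q)) : inlO ⇑Q g ∈ D.map (inlO ⇑Q) ↔ g ∈ D :=
  Subgroup.mem_map_iff_mem (inlO_injective ⇑Q)

theorem DFr.conj_iff (hD : DFr D) (w : ↥(GamO ⇑Q)) (g g' : ↥(GO Q))
    (h : inlO ⇑Q g' = w * inlO ⇑Q g * w⁻¹) : g' ∈ D ↔ g ∈ D := by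
  have := hD.normal
  rw [← inlO_mem_iff (D := D) g', ← inlO_mem_iff (D := D) g, h]
  constructor
  · intro h1
    have h2 := this.conj_mem _ h1 w⁻¹
    have e : w⁻¹ * (w * inlO ⇑Q g * w⁻¹) * w⁻¹⁻¹ = inlO ⇑Q g := by group
    rwa [e] at h2
  · intro h1
    exact this.conj_mem _ h1 w

theorem DFr.comm_mod (hD : DFr D) (hcyc : IsCyclic (F ≃+* F)) (y z : ↥(GamO ⇑Q)) :
    y * z * y⁻¹ * z⁻¹ ∈ D.map (inlO ⇑Q) := by
  have hn := hD.normal
  let f : (↥(GamO ⇑Q) ⧸ D.map (inlO ⇑Q)) →* (F ≃+* F) :=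
    QuotientGroup.lift _ (prO ⇑Q) (by
      rintro _ ⟨g, -, rfl⟩
      rfl)
  have hf : f.ker ≤ Subgroup.center (↥(GamO ⇑Q) ⧸ D.map (inlO ⇑Q)) := by
    intro z hz
    induction z using QuotientGroup.induction_on with
    | H z =>
      have hz' : z ∈ (prO ⇑Q).ker := hz
      rw [ker_prO] at hz'
      obtain ⟨g, rfl⟩ := hz'
      rw [Subgroup.mem_center_iff]
      intro w
      induction w using QuotientGroup.induction_on with
      | H w =>
        rw [← QuotientGroup.mk_mul, ← QuotientGroup.mk_mul, QuotientGroup.eq]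
        obtain ⟨g', hg', -⟩ := Cfsg.Agent.Lib.Helper18GamJ.exists_conj_inlO Q w⁻¹ g
        have e : (w * inlO ⇑Q g)⁻¹ * (inlO ⇑Q g * w) = inlO ⇑Q (g⁻¹ * g') := by
          rw [map_mul, hg', map_inv]
          group
        rw [e, inlO_mem_iff, Subgroup.mul_mem_iff_of_index_two hD.index, inv_mem_iff]
        exact (hD.conj_iff w⁻¹ g g' hg').symm
  have h1 := commutative_of_cyclic_center_quotient f hf (QuotientGroup.mk y) (QuotientGroup.mk z)
  rw [← QuotientGroup.mk_mul, ← QuotientGroup.mk_mul, QuotientGroup.eq] at h1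
  have h2 := hn.conj_mem _ (inv_mem h1) (y * z)
  have e : y * z * ((y * z)⁻¹ * (z * y))⁻¹ * (y * z)⁻¹ = y * z * y⁻¹ * z⁻¹ := by group
  rwa [e] at h2

variable {σ : F ≃+* F}

theorem left_mul_fS (hσ : Comm ⇑Q σ) (g : ↥(GO Q)) :
    ((inlO ⇑Q g * fS hσ : ↥(GamO ⇑Q)) : GamL ι F).left = (g : GL ι F) := by
  change (g : GL ι F) * mapAut (1 : F ≃+* F) (1 : GL ι F) = g
  rw [map_one, mul_one]

theorem right_mul_fS (hσ : Comm ⇑Q σ) (g : ↥(GO Q)) :
    ((inlO ⇑Q g * fS hσ : ↥(GamO ⇑Q)) : GamL ι F).right = σ := by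
  change (1 : F ≃+* F) * σ = σ
  rw [one_mul]

theorem sAut_mul_fS (hσ : Comm ⇑Q σ) (g : ↥(GO Q)) :
    sAut ⇑Q (inlO ⇑Q g * fS hσ) = cAut ⇑Q g * fA hσ := by
  rw [map_mul, sAut_inlO]
  rfl

/-- Conjugates of `γ φ` lie in the same coset of the inner-diagonal group. -/
theorem DFr.normal_form (hD : DFr D) (hcyc : IsCyclic (F ≃+* F))
    (hsurj : Function.Surjective (sAut ⇑Q)) (hσ : Comm ⇑Q σ) (r : ↥(GO Q)) (hr : r ∉ D)
    (x α : MulAut (POmega F ⇑Q)) (hα : α * x * α⁻¹ = cAut ⇑Q r * fA hσ) :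
    ∃ g, g ∉ D ∧ x = cAut ⇑Q g * fA hσ := by
  obtain ⟨a, rfl⟩ := hsurj α
  obtain ⟨d, hd, hdd⟩ := hD.comm_mod hcyc a⁻¹ (inlO ⇑Q r * fS hσ)
  refine ⟨d * r, ?_, ?_⟩
  · rw [Subgroup.mul_mem_iff_of_index_two hD.index]
    intro h
    exact hr (h.1 hd)
  · have h1 : x = (sAut ⇑Q a)⁻¹ * (cAut ⇑Q r * fA hσ) * sAut ⇑Q a := by
      rw [← hα]
      group
    rw [h1, ← sAut_mul_fS, ← sAut_mul_fS, ← map_inv, ← map_mul, ← map_mul]
    congr 1
    rw [map_mul, hdd]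
    group

end frame

section rect

variable {F : Type*} [Field F] {F₀ : Type*} [Field F₀] {j : F₀ →+* F}
variable {ι ι' : Type} [Fintype ι] [DecidableEq ι] [Fintype ι'] [DecidableEq ι']

theorem ext_sim_rect {Q₂ : QuadraticForm F (ι → F)} {Q₂₀ : QuadraticForm F₀ (ι → F₀)}
    {Q' : QuadraticForm F (ι' → F)} {Q₀' : QuadraticForm F₀ (ι' → F₀)}
    (hE₂ : Ext Q₂ Q₂₀ j) (hE : Ext Q' Q₀' j) (P : Matrix ι ι' F₀)
    (h : ∀ v, Q₂₀ (P *ᵥ v) = Q₀' v) (v : ι' → F) : Q₂ (P.map j *ᵥ v) = Q' v := by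
  have key : ∀ w : ι' → F₀, Q₂ (P.map j *ᵥ (fun i => j (w i))) = Q' (fun i => j (w i)) := by
    intro w
    have e : P.map j *ᵥ (fun i => j (w i)) = fun i => j ((P *ᵥ w) i) := by
      funext i
      exact (RingHom.map_mulVec j P w i).symm
    rw [e, hE₂, hE, h]
  have := qf_ext (Q₂.comp (Matrix.toLin' (P.map j))) Q'
    (fun i => by
      rw [QuadraticMap.comp_apply, Matrix.toLin'_apply, ← map_single (j := j), key])
    (fun i k => by
      have e : (Pi.single i 1 + Pi.single k 1 : ι' → F)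
          = fun l => j ((Pi.single i 1 + Pi.single k 1 : ι' → F₀) l) := by
        rw [← map_single (j := j) i, ← map_single (j := j) k]
        funext l
        simp
      rw [QuadraticMap.comp_apply, Matrix.toLin'_apply, e, key])
    v
  rw [QuadraticMap.comp_apply, Matrix.toLin'_apply] at this
  exact this

theorem inv_pair_mul {a b c R : Type*} [Fintype a] [Fintype b] [Fintype c] [DecidableEq a]
    [DecidableEq b] [DecidableEq c] [CommRing R] (A : Matrix a b R) (A' : Matrix b a R)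
    (C : Matrix b c R) (C' : Matrix c b R) (h1 : A * A' = 1) (h2 : C * C' = 1) :
    (A * C) * (C' * A') = 1 := by
  calc (A * C) * (C' * A') = A * (C * C') * A' := by simp only [Matrix.mul_assoc]
    _ = 1 := by rw [h2, Matrix.mul_one, h1]

theorem inv_pair_map {a b R S : Type*} [Fintype a] [Fintype b] [DecidableEq a]
    [DecidableEq b] [CommRing R] [CommRing S] (f : R →+* S) (A : Matrix a b R) (A' : Matrix b a R)
    (h1 : A * A' = 1) : A.map f * A'.map f = 1 := by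
  rw [← Matrix.map_mul, h1]
  exact Matrix.map_one f (map_zero _) (map_one _)

theorem ext_plus (m : ℕ) (f : F₀ →+* F) : Ext (QPlus m F) (QPlus m F₀) f := by
  intro v
  rw [coe_QPlus, coe_QPlus]
  simp [quadFormPlus]

theorem comm_plus (m : ℕ) (σ : F ≃+* F) : Comm ⇑(QPlus m F) σ := by
  intro v
  rw [coe_QPlus]
  simp [quadFormPlus]

theorem comm_minus (m : ℕ) {σ : F ≃+* F} {a b : F} (ha : σ a = a) (hb : σ b = b) :
    Comm ⇑(QMinus m F a b) σ := by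
  intro v
  rw [coe_QMinus]
  simp [quadFormMinus, ha, hb]

end rect

section main

variable {F : Type*} [Field F] [Fintype F] {F₀ : Type*} [Field F₀] [Fintype F₀] {j : F₀ →+* F}
variable {σ : F ≃+* F}

/-- **Normal form of graph-field involutions.** -/
theorem exists_simR {m k : ℕ} (hmk : m = k + 1) (hm : 3 ≤ m) {D : Subgroup ↥(GO (QPlus m F))}
    (hD : DFr D) (hcyc : IsCyclic (F ≃+* F)) (hj : ∀ a, σ a = a ↔ a ∈ Set.range j)
    (hr : orderOf σ = 2) (g : ↥(GO (QPlus m F))) (hg : g ∉ D)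
    (hy : (cAut ⇑(QPlus m F) g * fA (comm_plus m σ)) ^ 2 = 1) {a₀ b₀ : F₀} (hab : Aniso a₀ b₀) :
    ∃ (B : Matrix (Fin m ⊕ Fin m) ((Fin k ⊕ Fin k) ⊕ Fin 2) F)
      (B' : Matrix ((Fin k ⊕ Fin k) ⊕ Fin 2) (Fin m ⊕ Fin m) F) (κ c : F),
      SimR ⇑(QPlus m F) ⇑(QMinus k F (j a₀) (j b₀)) B B' κ ∧ c ≠ 0 ∧
        (c • ((g : GL (Fin m ⊕ Fin m) F) : Matrix (Fin m ⊕ Fin m) (Fin m ⊕ Fin m) F)) * B.map σ
          = B := by
  have hQ := Cfsg.Agent.Lib.Helper49Rank.QPlus_nondegenerate (F := F) m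
  have hcard : Fintype.card (Fin m ⊕ Fin m) = 2 * m := by simp; ring
  have hx : ∃ x, QPlus m F x ≠ 0 := by
    refine ⟨Pi.single (Sum.inl ⟨0, by omega⟩) 1 + Pi.single (Sum.inr ⟨0, by omega⟩) 1, ?_⟩
    have := (hypPair_QPlus (F := F) m ⟨0, by omega⟩).Q_st 1 1
    simp only [one_smul, mul_one] at this
    rw [this]
    exact one_ne_zero
  have hσ := comm_plus (F := F) m σ
  obtain ⟨M, c, ν, hM, hcomm⟩ := lang hQ (by omega) hx (inlO _ g * fS hσ) 2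
    (by rw [right_mul_fS]; exact hr) (by rw [sAut_mul_fS]; exact hy)
  rw [right_mul_fS] at hM hcomm
  obtain ⟨Q₂₀, hE₂⟩ := exists_descent (tw (QPlus m F) M ν) hcomm hj
  have hnd := ext_nondeg hE₂ (tw_nondeg hQ M ν)
  have hstd := std (F := F₀) (2 * m) Q₂₀ hnd (by simp; ring)
  rcases hstd with ⟨k', hk', e, f, h⟩ | ⟨k', hk', -⟩ | ⟨k', hk', e, f, x, y, h, hx, hy, hx1, hxy, ht⟩
  · exfalso
    obtain rfl : k' = m := by omega
    obtain ⟨L, hL⟩ := exists_equiv_hyperbolic k' (by simp; ring) Q₂₀ e f h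
    obtain ⟨P, P', h1, h2, hP⟩ := exists_matrix_of_equiv L
    obtain ⟨h', hh'⟩ := conj_of_iso hσ (ext_plus k' j) hj (inlO _ g * fS hσ) (right_mul_fS hσ g)
      M c ν hM Q₂₀ hE₂ ⟨P, P', h1, h2⟩ 1 (fun v => by
        change Q₂₀ (P *ᵥ v) = _
        rw [hP, hL, Units.val_one, one_mul])
    have h3 := hD.comm_mod hcyc (inlO _ h') (fS hσ)
    have h4 : inlO _ h' * fS hσ * (inlO _ h')⁻¹ * (fS hσ)⁻¹ = inlO _ (scal _ c * g) := by
      rw [hh', map_mul]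
      group
    rw [h4, inlO_mem_iff] at h3
    apply hg
    have h5 := mul_mem (inv_mem (hD.zz (scal_mem _ c))) h3
    rwa [inv_mul_cancel_left] at h5
  · omega
  · obtain rfl : k' = k := by omega
    obtain ⟨L, hL⟩ := exists_equiv_elliptic k' (by simp; omega) Q₂₀ e f x y h hx hy hx1 hxy ht
    obtain ⟨P, P', h1, h2, hP⟩ := exists_matrix_of_equiv L
    obtain ⟨g₁, hg₁⟩ := exists_isometry_minus k' (aniso_of_ne ht) hab
    obtain ⟨G₁, G₁', hG1, hG2, hG⟩ : ∃ G₁ G₁' : Matrix ((Fin k' ⊕ Fin k') ⊕ Fin 2)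
        ((Fin k' ⊕ Fin k') ⊕ Fin 2) F₀, G₁ * G₁' = 1 ∧ G₁' * G₁ = 1 ∧
        ∀ v, quadFormMinus k' F₀ 1 (Q₂₀ y) (G₁ *ᵥ v) = quadFormMinus k' F₀ a₀ b₀ v :=
      ⟨g₁.1, g₁.2, g₁.3, g₁.4, hg₁⟩
    obtain ⟨M₁, M₁', hM1, hM2, hMM⟩ : ∃ M₁ M₁' : Matrix (Fin m ⊕ Fin m) (Fin m ⊕ Fin m) F,
        M₁ * M₁' = 1 ∧ M₁' * M₁ = 1 ∧ M₁ = (M : Matrix (Fin m ⊕ Fin m) (Fin m ⊕ Fin m) F) :=
      ⟨M.1, M.2, M.3, M.4, rfl⟩
    have hP₁ : ∀ v, Q₂₀ ((P * G₁) *ᵥ v) = QMinus k' F₀ a₀ b₀ v := by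
      intro v
      rw [← Matrix.mulVec_mulVec, hP, hL, coe_QMinus, hG, coe_QMinus]
    have hsim := ext_sim_rect hE₂ (ext_minus k' j a₀ b₀) _ hP₁
    have e1 := inv_pair_mul P P' G₁ G₁' h1 hG1
    have e2 := inv_pair_mul G₁' G₁ P' P hG2 h2
    refine ⟨M₁ * (P * G₁).map j, (G₁' * P').map j * M₁', (ν : F)⁻¹, c,
      ⟨inv_pair_mul _ _ _ _ hM1 (inv_pair_map j _ _ e1),
        inv_pair_mul _ _ _ _ (inv_pair_map j _ _ e2) hM2, inv_ne_zero ν.ne_zero, fun v => ?_⟩,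
      c.ne_zero, ?_⟩
    · have := hsim v
      rw [tw_apply, ← hMM] at this
      rw [← this, ← Matrix.mulVec_mulVec, inv_mul_cancel_left₀ ν.ne_zero]
    · rw [left_mul_fS, ← hMM] at hM
      have e3 : (M₁ * (P * G₁).map j).map σ = M₁.map σ * (P * G₁).map j := by
        have := Matrix.map_mul (f := (σ : F →+* F)) (L := M₁) (M := (P * G₁).map j)
        simp only [RingHom.coe_coe] at this
        rw [this]
        congr 1
        ext a b
        exact (hj _).2 ⟨_, rfl⟩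
      rw [e3, ← Matrix.mul_assoc, hM]

end main

end Cfsg.Agent.Lib.Helper18GfB
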