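import Mathlib
import Cfsg.Agent.Lib.Helper18BalM
import Cfsg.Agent.Lib.Helper18LangB
import Cfsg.Agent.Lib.Helper18GfB
import Cfsg.Agent.Lib.Helper42BalO

set_option autoImplicit false
set_option linter.unusedSectionVars false

/-! Local balance for minus type groups: the field case (helper18). -/

namespace Cfsg.Agent.Lib.Helper18BalN

open Cfsg Matrix Module
open scoped MatrixGroups
open Cfsg.Agent.Lib.Helper49Orth Cfsg.Agent.Lib.Helper49Forms Cfsg.Agent.Lib.Helper49Center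
  Cfsg.Agent.Lib.Helper51OrthAut Cfsg.Agent.Lib.Helper51OrthIdx Cfsg.Agent.Lib.Helper51OrthIdx2
  Cfsg.Agent.Lib.Helper51OrthIdx3 Cfsg.Agent.Lib.Helper51OrthInst
  Cfsg.Agent.Lib.Helper51OrthMinus2
  Cfsg.Agent.Lib.Helper18GamA Cfsg.Agent.Lib.Helper18GamB Cfsg.Agent.Lib.Helper18GamD
  Cfsg.Agent.Lib.Helper18GamE Cfsg.Agent.Lib.Helper18GamF Cfsg.Agent.Lib.Helper18GamK
  Cfsg.Agent.Lib.Helper18GamL Cfsg.Agent.Lib.Helper18RecA
  Cfsg.Agent.Lib.Helper18LangA Cfsg.Agent.Lib.Helper18LangB Cfsg.Agent.Lib.Helper18GfB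
  Cfsg.Agent.Lib.Helper18BalA Cfsg.Agent.Lib.Helper18BalB Cfsg.Agent.Lib.Helper18BalC
  Cfsg.Agent.Lib.Helper18BalL Cfsg.Agent.Lib.Helper18Hyp Cfsg.Agent.Lib.Helper42Quad

variable {F : Type*} [Field F]

section TS

variable {ι ι' : Type} [Fintype ι] [DecidableEq ι] [Fintype ι'] [DecidableEq ι']

theorem SimR.TS {Q : QuadraticForm F (ι → F)} {Q' : QuadraticForm F (ι' → F)}
    {B : Matrix ι ι' F} {B' : Matrix ι' ι F} {κ : F} (h : SimR ⇑Q ⇑Q' B B' κ)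
    (W : Submodule F (ι' → F)) (hW : TS Q' W) :
    ∃ U : Submodule F (ι → F), Cfsg.Agent.Lib.Helper18Hyp.TS Q U ∧ finrank F U = finrank F W := by
  have hinj : Function.Injective (Matrix.mulVecLin B) := by
    intro x y hxy
    have := congrArg (fun z => B' *ᵥ z) hxy
    simpa only [Matrix.mulVecLin_apply, Matrix.mulVec_mulVec, h.mul', Matrix.one_mulVec] using this
  refine ⟨W.map (Matrix.mulVecLin B), ?_, ?_⟩
  · rintro _ ⟨w, hw, rfl⟩
    rw [Matrix.mulVecLin_apply, h.sim, hW w hw, mul_zero]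
  · exact (LinearEquiv.finrank_eq (Submodule.equivMapOfInjective _ hinj W)).symm

/-- the totally singular subspace attached to a zero of the binary part -/
def Tz (m : ℕ) (z₁ z₂ : F) : ((Fin m → F) × F) →ₗ[F] ((Fin m ⊕ Fin m) ⊕ Fin 2 → F) where
  toFun p := Sum.elim (Sum.elim p.1 0) ![p.2 * z₁, p.2 * z₂]
  map_add' p q := by
    funext k
    rcases k with (k | k) | k
    · simp
    · simp
    · fin_cases k <;> simp [add_mul]
  map_smul' c p := by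
    funext k
    rcases k with (k | k) | k
    · simp
    · simp
    · fin_cases k <;> simp [mul_assoc]

theorem exists_TS_of_zero (m : ℕ) {a b z₁ z₂ : F} (h : z₁ ^ 2 + a * z₁ * z₂ + b * z₂ ^ 2 = 0)
    (hz : ¬ (z₁ = 0 ∧ z₂ = 0)) :
    ∃ W : Submodule F ((Fin m ⊕ Fin m) ⊕ Fin 2 → F), TS (QMinus m F a b) W ∧
      finrank F W = m + 1 := by
  have hinj : Function.Injective (Tz m z₁ z₂) := by
    intro p q hpq
    have h1 : p.1 = q.1 := by
      funext k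
      exact congrFun hpq (Sum.inl (Sum.inl k))
    have h2 : p.2 * z₁ = q.2 * z₁ := congrFun hpq (Sum.inr 0)
    have h3 : p.2 * z₂ = q.2 * z₂ := congrFun hpq (Sum.inr 1)
    have h4 : p.2 = q.2 := by
      by_cases hz1 : z₁ = 0
      · exact mul_right_cancel₀ (fun h0 => hz ⟨hz1, h0⟩) h3
      · exact mul_right_cancel₀ hz1 h2
    exact Prod.ext h1 h4
  refine ⟨LinearMap.range (Tz m z₁ z₂), ?_, ?_⟩
  · rintro _ ⟨p, rfl⟩
    rw [QMinus_eq, Cfsg.Agent.Lib.Helper49Levi.QPlus_eq_dot]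
    show (p.1 : Fin m → F) ⬝ᵥ (0 : Fin m → F) + ((p.2 * z₁) ^ 2 + a * (p.2 * z₁) * (p.2 * z₂)
      + b * (p.2 * z₂) ^ 2) = 0
    rw [dotProduct_zero]
    linear_combination p.2 ^ 2 * h
  · rw [LinearMap.finrank_range_of_inj hinj, Module.finrank_prod,
      Module.finrank_fintype_fun_eq_card, Fintype.card_fin, Module.finrank_self]

theorem aniso_of_simR [Fintype F] {m : ℕ} {a b a' b' : F}
    {B B' : Matrix ((Fin m ⊕ Fin m) ⊕ Fin 2) ((Fin m ⊕ Fin m) ⊕ Fin 2) F} {κ : F}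
    (h : SimR ⇑(QMinus m F a b) ⇑(QMinus m F a' b') B B' κ) (hab : Aniso a b) : Aniso a' b' := by
  intro z₁ z₂ hz
  by_contra hcon
  obtain ⟨W, hW, hWd⟩ := exists_TS_of_zero m hz hcon
  obtain ⟨U, hU, hUd⟩ := SimR.TS h W hW
  have := Cfsg.Agent.Lib.Helper42OInv2.TS_minus_le m hab U hU
  omega

end TS

theorem sq_mem_all [Fintype F] {ι : Type} [Fintype ι] [DecidableEq ι] {Q : QuadraticForm F (ι → F)}
    (hQ : (QuadraticMap.polarBilin Q).Nondegenerate) (hx : ∃ x, Q x = 1)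
    (hn : 5 ≤ Fintype.card ι) (y : ↥(isometryGroup F ⇑Q)) : y * y ∈ Omega F ⇑Q := by
  by_cases h2 : (2 : F) = 0
  · have : CharP F 2 := CharTwo.of_one_ne_zero_of_two_eq_zero one_ne_zero h2
    have hi := index_K0_two Q hQ hx hn
    have h1 : incO Q y * incO Q y ∈ Om' Q ⊔ ZZ Q := Subgroup.mul_self_mem_of_index_two hi _
    have h3 : incO Q (y * y) ∈ (Om' Q ⊔ ZZ Q) ⊓ OO' Q := ⟨by rw [map_mul]; exact h1, ⟨_, rfl⟩⟩
    rw [K0_inf_OO' Q hx, incO_mem_Om'] at h3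
    exact h3
  · exact Cfsg.Agent.Lib.Helper42BalO.sq_mem h2 hQ y

set_option maxHeartbeats 1000000 in
/-- **The field case for minus type groups.** -/
theorem field_top [Fintype F] {r f : ℕ} [Fact r.Prime] (hF : Fintype.card F = r ^ f) {m : ℕ}
    (hm : 3 ≤ m) {a b : F} (hab : Aniso a b)
    (hsurj : Function.Surjective (sAut ⇑(QMinus m F a b)))
    (y : ↥(GamO ⇑(QMinus m F a b)))
    (hσ1 : (y : GamL ((Fin m ⊕ Fin m) ⊕ Fin 2) F).right ≠ 1) {p : ℕ} [Fact p.Prime]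
    (hord : orderOf (sAut ⇑(QMinus m F a b) y) = p) :
    FieldCrit p (sAut ⇑(QMinus m F a b) y) ∧
    ∃ (a' b' : F) (ψ : POmega F ⇑(QMinus m F a b) ≃* POmega F ⇑(QMinus m F a' b'))
      (σ : F ≃+* F) (hσ : Comm ⇑(QMinus m F a' b') σ),
      Aniso a' b' ∧ σ ≠ 1 ∧ σ a' = a' ∧ σ b' = b' ∧
        MulAut.congr ψ (sAut ⇑(QMinus m F a b) y) = fA hσ := by
  have hp : p.Prime := Fact.out
  have hQ := Cfsg.Agent.Lib.Helper49Rank.QMinus_nondegenerate m hab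
  have hcard : Fintype.card ((Fin m ⊕ Fin m) ⊕ Fin 2) = 2 * (m + 1) := card_minus m
  have hn5 : 5 ≤ Fintype.card ((Fin m ⊕ Fin m) ⊕ Fin 2) := by omega
  set σ := (y : GamL ((Fin m ⊕ Fin m) ⊕ Fin 2) F).right with hσdef
  have hyp : sAut ⇑(QMinus m F a b) y ^ p = 1 := by
    rw [← hord]
    exact pow_orderOf_eq_one _
  have hσp : σ ^ p = 1 := by
    have h1 := right_eq_one _ hQ hn5 (y ^ p) (by rw [map_pow, hyp])
    rw [Subgroup.coe_pow, (pow_left_right (y : GamL ((Fin m ⊕ Fin m) ⊕ Fin 2) F) p).2] at h1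
    exact h1
  have hordσ : orderOf σ = p := orderOf_eq_prime hσp hσ1
  obtain ⟨x1, hx1⟩ := exists_one_minus m a b
  obtain ⟨M, c, ν, hM, hcomm⟩ := lang hQ hn5 ⟨x1, by rw [hx1]; exact one_ne_zero⟩ y p hordσ hyp
  have hpf : p ∣ f := by
    rw [← hordσ, ← (Cfsg.Agent.Lib.Helper50Out.ringAut_cyclic_card hF).2]
    exact orderOf_dvd_natCard σ
  have hf0 : f ≠ 0 := by
    rintro rfl
    rw [pow_zero] at hF
    have := Fintype.one_lt_card (α := F)
    omega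
  have hfp : f / p ≠ 0 := by
    obtain ⟨k, rfl⟩ := hpf
    rw [Nat.mul_div_cancel_left _ hp.pos]
    rintro rfl
    exact hf0 (mul_zero _)
  have : Finite (GaloisField r (f / p)) := Nat.finite_of_card_ne_zero (by
    rw [GaloisField.card r _ hfp]
    exact pow_ne_zero _ (Fact.out : r.Prime).ne_zero)
  let _ : Fintype (GaloisField r (f / p)) := Fintype.ofFinite _
  have hF₀ : Fintype.card (GaloisField r (f / p)) = r ^ (f / p) := by
    rw [← Nat.card_eq_fintype_card, GaloisField.card r _ hfp]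
  obtain ⟨j, hj⟩ := Cfsg.Agent.Lib.Helper50Cent.exists_embedding hF σ hordσ
    (GaloisField r (f / p)) hF₀
  obtain ⟨Q₂₀, hE₂⟩ := exists_descent (tw (QMinus m F a b) M ν) hcomm hj
  have hnd := ext_nondeg hE₂ (tw_nondeg hQ M ν)
  have hstd := std (F := GaloisField r (f / p)) (2 * m + 2) Q₂₀ hnd (by simp; ring)
  rcases hstd with ⟨k, hk, e, f', h⟩ | ⟨k, hk, -⟩ | ⟨k, hk, e, f', x, y₀, h, hx, hy, hx1', hxy, ht⟩
  · exfalso
    obtain ⟨W, hW, hWk⟩ := hyp_TS _ _ _ (hyp_ext hE₂ e f' h)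
    obtain ⟨h1, h2⟩ := TS_tw M ν W hW
    have := Cfsg.Agent.Lib.Helper42OInv2.TS_minus_le m hab _ h1
    omega
  · omega
  · obtain rfl : k = m := by omega
    obtain ⟨P₁, hP₁⟩ := exists_iso_elliptic k Q₂₀ e f' x y₀ h hx hy hx1' hxy ht
    set β := Q₂₀ y₀ with hβ
    have hE := ext_minus k j 1 β
    have h1 := ext_sim2 hE₂ hE (P₁ : Matrix _ _ (GaloisField r (f / p))) 1 (fun v => by
      rw [hP₁, one_mul])
    set B : GL ((Fin k ⊕ Fin k) ⊕ Fin 2) F := M * Matrix.GeneralLinearGroup.map j P₁ with hB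
    have hS : SimR ⇑(QMinus k F a b) ⇑(QMinus k F (j 1) (j β))
        (B : Matrix ((Fin k ⊕ Fin k) ⊕ Fin 2) ((Fin k ⊕ Fin k) ⊕ Fin 2) F)
        ((B⁻¹ : GL ((Fin k ⊕ Fin k) ⊕ Fin 2) F) :
          Matrix ((Fin k ⊕ Fin k) ⊕ Fin 2) ((Fin k ⊕ Fin k) ⊕ Fin 2) F) (ν : F)⁻¹ := by
      refine ⟨by rw [← Units.val_mul, mul_inv_cancel, Units.val_one],
        by rw [← Units.val_mul, inv_mul_cancel, Units.val_one], inv_ne_zero ν.ne_zero, fun v => ?_⟩
      have h2 := h1 v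
      rw [tw_apply, (congrArg (· * (QMinus k F (j 1) (j β)) v) (map_one j)).trans (one_mul _)] at h2
      rw [← h2, inv_mul_cancel_left₀ ν.ne_zero, hB, Units.val_mul, ← Matrix.mulVec_mulVec]
      rfl
    have hab' : Aniso (j 1) (j β) := aniso_of_simR hS hab
    have hσa : σ (j 1) = j 1 := (hj _).2 ⟨_, rfl⟩
    have hσb : σ (j β) = j β := (hj _).2 ⟨_, rfl⟩
    have hσ' : Comm ⇑(QMinus k F (j 1) (j β)) σ := comm_minus k hσa hσb
    have hBσ : ((c : F) • ((y : GamL ((Fin k ⊕ Fin k) ⊕ Fin 2) F).left :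
        Matrix ((Fin k ⊕ Fin k) ⊕ Fin 2) ((Fin k ⊕ Fin k) ⊕ Fin 2) F)) *
        (B : Matrix ((Fin k ⊕ Fin k) ⊕ Fin 2) ((Fin k ⊕ Fin k) ⊕ Fin 2) F).map σ
        = (B : Matrix ((Fin k ⊕ Fin k) ⊕ Fin 2) ((Fin k ⊕ Fin k) ⊕ Fin 2) F) := by
      have e1 : ((M : Matrix ((Fin k ⊕ Fin k) ⊕ Fin 2) ((Fin k ⊕ Fin k) ⊕ Fin 2) F) *
          ((Matrix.GeneralLinearGroup.map j P₁ : GL ((Fin k ⊕ Fin k) ⊕ Fin 2) F) :
            Matrix ((Fin k ⊕ Fin k) ⊕ Fin 2) ((Fin k ⊕ Fin k) ⊕ Fin 2) F)).map σ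
          = (M : Matrix ((Fin k ⊕ Fin k) ⊕ Fin 2) ((Fin k ⊕ Fin k) ⊕ Fin 2) F).map σ *
            ((Matrix.GeneralLinearGroup.map j P₁ : GL ((Fin k ⊕ Fin k) ⊕ Fin 2) F) :
              Matrix ((Fin k ⊕ Fin k) ⊕ Fin 2) ((Fin k ⊕ Fin k) ⊕ Fin 2) F) := by
        have := Matrix.map_mul (f := (σ : F →+* F))
          (L := (M : Matrix ((Fin k ⊕ Fin k) ⊕ Fin 2) ((Fin k ⊕ Fin k) ⊕ Fin 2) F))
          (M := ((Matrix.GeneralLinearGroup.map j P₁ : GL ((Fin k ⊕ Fin k) ⊕ Fin 2) F) :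
            Matrix ((Fin k ⊕ Fin k) ⊕ Fin 2) ((Fin k ⊕ Fin k) ⊕ Fin 2) F))
        simp only [RingHom.coe_coe] at this
        rw [this]
        congr 1
        ext a' b'
        exact (hj _).2 ⟨_, rfl⟩
      rw [hB, Units.val_mul, e1, ← Matrix.mul_assoc, hM]
    have hcongr := congr_fAR hS hσ' y rfl (c : F) c.ne_zero hBσ
    have hp2 : p ≠ 2 := by
      rintro rfl
      apply not_card_sq hab'
      rw [hF, hF₀, ← pow_mul, Nat.div_mul_cancel hpf]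
    have hab₀ : Aniso (1 : GaloisField r (f / p)) β := aniso_of_ne ht
    have hQ₀ := Cfsg.Agent.Lib.Helper49Rank.QMinus_nondegenerate k hab₀
    have hQ' := Cfsg.Agent.Lib.Helper49Rank.QMinus_nondegenerate k hab'
    have FC := field_case hQ' hQ₀ hn5 (sAut_surjective_of_simR hS hsurj) hσ' hE hj p hp2 hσp
      (sq_mem_all hQ₀ (exists_one_minus k _ _) hn5)
    have hc2 : MulAut.congr (psiR hS).symm (sAut ⇑(QMinus k F a b) y) = fA hσ' := by
      rw [← hcongr, congr_symm_congr]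
    refine ⟨?_, j 1, j β, (psiR hS).symm, σ, hσ', hab', hσ1, hσa, hσb, hc2⟩
    apply fieldCrit_congr (psiR hS).symm
    rw [hc2]
    exact FC

end Cfsg.Agent.Lib.Helper18BalN
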