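import Mathlib
import Cfsg.Agent.Lib.Helper49Par
import Cfsg.Agent.Lib.Helper49Simple
import Cfsg.Agent.Lib.Helper49Center
import Cfsg.Agent.Lib.Helper49Perfect

/-!
# Automorphisms of `PΩ(Q)` permute the singular points, part A

Fixed vectors of `p`-subgroups of the isometry group; a subgroup normalising a nontrivial
`p`-subgroup stabilises a totally singular subspace (or fixes a nonsingular vector).
-/

set_option autoImplicit false
set_option linter.unusedSectionVars false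

namespace Cfsg.Agent.Lib.Helper18OPtA

open scoped Matrix
open Module
open Cfsg.Agent.Lib.Helper49Orth Cfsg.Agent.Lib.Helper49Hyp Cfsg.Agent.Lib.Helper18Hyp
  Cfsg.Agent.Lib.Helper49Eich Cfsg.Agent.Lib.Helper49Geo Cfsg.Agent.Lib.Helper49EichGen
  Cfsg.Agent.Lib.Helper49Fam Cfsg.Agent.Lib.Helper49Trans Cfsg.Agent.Lib.Helper49CharTwoA

/-- A `p`-group acting on a nontrivial finite additive group of exponent `p`, fixing `0`,
fixes a nonzero element. -/
theorem exists_fixed_ne_zero {p : ℕ} [Fact p.Prime] {S : Type*} [Group S] (hS : IsPGroup p S)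
    {X : Type*} [AddGroup X] [Finite X] [MulAction S X] (h0 : ∀ s : S, s • (0 : X) = 0)
    (hp : ∀ x : X, p • x = 0) (hX : ∃ x : X, x ≠ 0) : ∃ x : X, x ≠ 0 ∧ ∀ s : S, s • x = x := by
  obtain ⟨x, hx⟩ := hX
  have h1 : addOrderOf x = p := addOrderOf_eq_prime (hp x) hx
  have h2 : p ∣ Nat.card X := h1 ▸ addOrderOf_dvd_natCard x
  obtain ⟨b, hb, hne⟩ := hS.exists_fixed_point_of_prime_dvd_card_of_fixed_point X h2
    (a := 0) (MulAction.mem_fixedPoints.2 h0)
  exact ⟨b, Ne.symm hne, MulAction.mem_fixedPoints.1 hb⟩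

/-- A `p`-group acting on a nontrivial finite `p`-group, fixing `1`, fixes another element. -/
theorem exists_fixed_ne_one {p : ℕ} [Fact p.Prime] {S : Type*} [Group S] (hS : IsPGroup p S)
    {X : Type*} [Group X] [Finite X] [MulAction S X] (h0 : ∀ s : S, s • (1 : X) = 1)
    (hp : IsPGroup p X) (hX : ∃ x : X, x ≠ 1) : ∃ x : X, x ≠ 1 ∧ ∀ s : S, s • x = x := by
  have h2 : p ∣ Nat.card X := by
    rcases hp.card_eq_or_dvd with h | h
    · exfalso
      obtain ⟨x, hx⟩ := hX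
      have := Nat.card_eq_one_iff_unique.1 h
      exact hx (this.1.elim x 1)
    · exact h
  obtain ⟨b, hb, hne⟩ := hS.exists_fixed_point_of_prime_dvd_card_of_fixed_point X h2
    (a := 1) (MulAction.mem_fixedPoints.2 h0)
  exact ⟨b, Ne.symm hne, MulAction.mem_fixedPoints.1 hb⟩

variable {F : Type*} [Field F]
variable {ι : Type} [Fintype ι] [DecidableEq ι] (Q : QuadraticForm F (ι → F))

local notation "𝐁" => QuadraticMap.polar (DFunLike.coe Q)
local notation:max W "ᗮ" => LinearMap.BilinForm.orthogonal (QuadraticMap.polarBilin Q) W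
local notation "OO" => Subtype (fun x => x ∈ Cfsg.isometryGroup F (DFunLike.coe Q))
local notation:70 g:70 " ∙ " x:71 =>
  Matrix.mulVec (Units.val (Subtype.val g)) x

/-- The space of vectors fixed by a subgroup of the isometry group. -/
def fixS (S : Subgroup OO) : Submodule F (ι → F) where
  carrier := {x | ∀ s ∈ S, s ∙ x = x}
  add_mem' := by
    intro a b ha hb s hs
    rw [Matrix.mulVec_add, ha s hs, hb s hs]
  zero_mem' := by
    intro s _
    rw [Matrix.mulVec_zero]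
  smul_mem' := by
    intro c x hx s hs
    rw [Matrix.mulVec_smul, hx s hs]

theorem mem_fixS {S : Subgroup OO} {x : ι → F} : x ∈ fixS Q S ↔ ∀ s ∈ S, s ∙ x = x := Iff.rfl

/-- invariance of a subspace under a subgroup -/
def Inv (K : Subgroup OO) (W : Submodule F (ι → F)) : Prop := ∀ k ∈ K, ∀ x ∈ W, k ∙ x ∈ W

theorem Inv.le_stab {K : Subgroup OO} {W : Submodule F (ι → F)} (h : Inv Q K W) :
    K ≤ stab Q W := fun k hk => mem_stab_of_le Q (h k hk)

theorem inv_of_le_stab {K : Subgroup OO} {W : Submodule F (ι → F)} (h : K ≤ stab Q W) :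
    Inv Q K W := by
  intro k hk x hx
  have := (mem_stab Q).1 (h hk)
  rw [← this]
  exact (mem_img Q).2 ⟨x, hx, rfl⟩

theorem Inv.orth {K : Subgroup OO} {W : Submodule F (ι → F)} (h : Inv Q K W) : Inv Q K Wᗮ := by
  intro k hk x hx
  rw [mem_orth] at hx ⊢
  intro w hw
  have h1 := hx _ (h k⁻¹ (K.inv_mem hk) w hw)
  rw [← polar_iso Q k, mulVec_inv_mulVec] at h1
  exact h1

theorem Inv.inf {K : Subgroup OO} {W W' : Submodule F (ι → F)} (h : Inv Q K W)
    (h' : Inv Q K W') : Inv Q K (W ⊓ W') :=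
  fun k hk x hx => ⟨h k hk x hx.1, h' k hk x hx.2⟩

theorem Inv.mono {K K' : Subgroup OO} {W : Submodule F (ι → F)} (h : Inv Q K W) (hle : K' ≤ K) :
    Inv Q K' W := fun k hk => h k (hle hk)

theorem inv_fixS {K S : Subgroup OO} (h : ∀ k ∈ K, ∀ s ∈ S, k * s * k⁻¹ ∈ S) :
    Inv Q K (fixS Q S) := by
  intro k hk x hx s hs
  have h1 := h k⁻¹ (K.inv_mem hk) s hs
  rw [inv_inv] at h1
  have h2 := hx _ h1
  rw [mul_mulVec, mul_mulVec] at h2
  have h3 := congrArg (fun y => k ∙ y) h2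
  simp only [mulVec_inv_mulVec] at h3
  exact h3

/-- The singular vectors of a totally isotropic subspace. -/
def singPart (T : Submodule F (ι → F)) (hT : T ≤ Tᗮ) : Submodule F (ι → F) where
  carrier := {x | x ∈ T ∧ Q x = 0}
  add_mem' := by
    rintro a b ⟨ha, ha0⟩ ⟨hb, hb0⟩
    refine ⟨T.add_mem ha hb, ?_⟩
    rw [Q_add, ha0, hb0, mem_orth.1 (hT hb) a ha]
    simp
  zero_mem' := ⟨T.zero_mem, map_zero Q⟩
  smul_mem' := by
    rintro c x ⟨hx, hx0⟩
    exact ⟨T.smul_mem c hx, by rw [QuadraticMap.map_smul, hx0, smul_zero]⟩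

theorem mem_singPart {T : Submodule F (ι → F)} {hT : T ≤ Tᗮ} {x : ι → F} :
    x ∈ singPart Q T hT ↔ x ∈ T ∧ Q x = 0 := Iff.rfl

theorem singPart_TS (T : Submodule F (ι → F)) (hT : T ≤ Tᗮ) : TS Q (singPart Q T hT) :=
  fun _ hx => hx.2

theorem Inv.singPart {K : Subgroup OO} {T : Submodule F (ι → F)} (hT : T ≤ Tᗮ) (h : Inv Q K T) :
    Inv Q K (singPart Q T hT) :=
  fun k hk x hx => ⟨h k hk x hx.1, by rw [iso_apply (Q := ⇑Q)]; exact hx.2⟩

theorem inf_orth_le (C : Submodule F (ι → F)) : C ⊓ Cᗮ ≤ (C ⊓ Cᗮ)ᗮ := by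
  intro x hx
  rw [mem_orth]
  intro w hw
  exact mem_orth.1 hx.2 w hw.1

section Finite

variable [Finite F] {p : ℕ} [Fact p.Prime] [CharP F p]

/-- A `p`-subgroup fixes a nonzero vector in every nonzero invariant subspace. -/
theorem exists_fixed_in {S : Subgroup OO} (hS : IsPGroup p S) {W : Submodule F (ι → F)}
    (hW : Inv Q S W) (hW0 : W ≠ ⊥) : ∃ x ∈ W, x ≠ 0 ∧ x ∈ fixS Q S := by
  letI : MulAction ↥S ↥W :=
    { smul := fun s x => ⟨(s : OO) ∙ (x : ι → F), hW s s.2 x x.2⟩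
      one_smul := fun x => Subtype.ext (one_mulVec' Q x)
      mul_smul := fun s t x => Subtype.ext (mul_mulVec Q s t x) }
  have hsm : ∀ (s : ↥S) (x : ↥W), ((s • x : ↥W) : ι → F) = (s : OO) ∙ (x : ι → F) :=
    fun _ _ => rfl
  obtain ⟨y, hyW, hy0⟩ := Submodule.exists_mem_ne_zero_of_ne_bot hW0
  obtain ⟨x, hx0, hx⟩ := exists_fixed_ne_zero (p := p) hS (X := ↥W)
    (fun s => Subtype.ext (by rw [hsm]; simp))
    (fun x => by
      apply Subtype.ext
      funext i
      simp [CharP.cast_eq_zero F p])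
    ⟨⟨y, hyW⟩, fun h => hy0 (congrArg Subtype.val h)⟩
  refine ⟨x, x.2, fun h => hx0 (Subtype.ext h), fun s hs => ?_⟩
  have := congrArg Subtype.val (hx ⟨s, hs⟩)
  rwa [hsm] at this

theorem rad_ne_bot (hQ : (QuadraticMap.polarBilin Q).Nondegenerate) {S : Subgroup OO}
    (hS : IsPGroup p S) (hS1 : S ≠ ⊥) : fixS Q S ⊓ (fixS Q S)ᗮ ≠ ⊥ := by
  intro hbot
  have hinv : Inv Q S (fixS Q S) := fun s hs x hx => by rw [hx s hs]; exact hx
  by_cases h0 : (fixS Q S)ᗮ = ⊥
  · have h1 := finrank_orth_add Q hQ (fixS Q S)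
    rw [h0, finrank_bot, zero_add] at h1
    have h2 : fixS Q S = ⊤ := by
      apply Submodule.eq_top_of_finrank_eq
      rw [h1, Module.finrank_fintype_fun_eq_card]
    apply hS1
    rw [eq_bot_iff]
    intro s hs
    rw [Subgroup.mem_bot]
    apply ext_mulVec
    intro x
    rw [one_mulVec']
    have : x ∈ fixS Q S := h2 ▸ Submodule.mem_top
    exact this s hs
  · obtain ⟨x, hx, hx0, hxf⟩ := exists_fixed_in Q hS (Inv.orth Q hinv) h0
    apply hx0
    have : x ∈ fixS Q S ⊓ (fixS Q S)ᗮ := ⟨hxf, hx⟩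
    rw [hbot] at this
    exact (Submodule.mem_bot F).1 this

/-- A subgroup normalising a nontrivial `p`-subgroup stabilises a nonzero totally singular
subspace, or fixes a nonsingular vector. -/
theorem exists_TS_of_normalises (hQ : (QuadraticMap.polarBilin Q).Nondegenerate)
    {S K : Subgroup OO} (hS : IsPGroup p S) (hS1 : S ≠ ⊥)
    (hK : ∀ k ∈ K, ∀ s ∈ S, k * s * k⁻¹ ∈ S) :
    ∃ R : Submodule F (ι → F), TS Q R ∧ K ≤ stab Q R ∧ R ≤ fixS Q S ∧
      (R ≠ ⊥ ∨ ∃ w, Q w ≠ 0 ∧ ∀ k ∈ K, k ∙ w = w) := by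
  set C := fixS Q S with hC
  have hCi : Inv Q K C := inv_fixS Q hK
  have hri : Inv Q K (C ⊓ Cᗮ) := Inv.inf Q hCi (Inv.orth Q hCi)
  refine ⟨singPart Q (C ⊓ Cᗮ) (inf_orth_le Q C), singPart_TS Q _ _,
    Inv.le_stab Q (Inv.singPart Q _ hri), fun x hx => hx.1.1, ?_⟩
  by_cases hR : singPart Q (C ⊓ Cᗮ) (inf_orth_le Q C) = ⊥
  · right
    obtain ⟨w, hw, hw0⟩ := Submodule.exists_mem_ne_zero_of_ne_bot (rad_ne_bot Q hQ hS hS1)
    have hz : ∀ x, x ∈ C ⊓ Cᗮ → Q x = 0 → x = 0 := by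
      intro x hx hx0
      have : x ∈ singPart Q (C ⊓ Cᗮ) (inf_orth_le Q C) := ⟨hx, hx0⟩
      rw [hR] at this
      exact (Submodule.mem_bot F).1 this
    refine ⟨w, fun h => hw0 (hz w hw h), fun k hk => ?_⟩
    have h1 : k ∙ w ∈ C ⊓ Cᗮ := hri k hk w hw
    have h2 : 𝐁 w w = 0 := mem_orth.1 hw.2 w hw.1
    have h3 : 𝐁 (k ∙ w) w = 0 := mem_orth.1 hw.2 _ h1.1
    have h4 : Q (k ∙ w - w) = 0 := by
      rw [Q_sub, iso_apply (Q := ⇑Q), h3]
      rw [QuadraticMap.polar_self] at h2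
      simp only [nsmul_eq_mul, Nat.cast_ofNat] at h2
      linear_combination h2
    exact sub_eq_zero.1 (hz _ (Submodule.sub_mem _ h1 hw) h4)
  · exact Or.inl hR

end Finite

end Cfsg.Agent.Lib.Helper18OPtA
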