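import Mathlib
import Cfsg.Agent.Lib.Helper18OPtA

/-!
# Automorphisms of `PΩ(Q)` permute the singular points, part B

The root group `RS e = {E(e,w)}` of a singular vector: it is a `p`-group, its only fixed vectors are
the multiples of `e`; every `p`-subgroup of the isometry group fixes a singular point.
-/

set_option autoImplicit false
set_option linter.unusedSectionVars false

namespace Cfsg.Agent.Lib.Helper18OPtB

open scoped Matrix
open Module
open Cfsg.Agent.Lib.Helper49Orth Cfsg.Agent.Lib.Helper49Hyp Cfsg.Agent.Lib.Helper18Hyp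
  Cfsg.Agent.Lib.Helper49Eich Cfsg.Agent.Lib.Helper49Geo Cfsg.Agent.Lib.Helper49EichGen
  Cfsg.Agent.Lib.Helper49Fam Cfsg.Agent.Lib.Helper49Trans Cfsg.Agent.Lib.Helper49CharTwoA
  Cfsg.Agent.Lib.Helper49Prim Cfsg.Agent.Lib.Helper49Perfect Cfsg.Agent.Lib.Helper18OPtA

variable {F : Type*} [Field F]
variable {ι : Type} [Fintype ι] [DecidableEq ι] (Q : QuadraticForm F (ι → F))

local notation "𝐁" => QuadraticMap.polar (DFunLike.coe Q)
local notation:max W "ᗮ" => LinearMap.BilinForm.orthogonal (QuadraticMap.polarBilin Q) W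
local notation "OO" => Subtype (fun x => x ∈ Cfsg.isometryGroup F (DFunLike.coe Q))
local notation:70 g:70 " ∙ " x:71 =>
  Matrix.mulVec (Units.val (Subtype.val g)) x

/-- The root group of a singular vector. -/
noncomputable def RS (e : ι → F) (he : Q e = 0) : Subgroup OO where
  carrier := {g | ∃ w, 𝐁 e w = 0 ∧ g = E Q e w}
  one_mem' := ⟨0, by simp, (E_zero Q e).symm⟩
  mul_mem' := by
    rintro _ _ ⟨w, hw, rfl⟩ ⟨w', hw', rfl⟩
    exact ⟨w + w', by rw [QuadraticMap.polar_add_right, hw, hw', add_zero], E_mul Q he hw hw'⟩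
  inv_mem' := by
    rintro _ ⟨w, hw, rfl⟩
    exact ⟨-w, by rw [QuadraticMap.polar_neg_right, hw, neg_zero], E_inv Q he hw⟩

theorem mem_RS {e : ι → F} {he : Q e = 0} {g : OO} :
    g ∈ RS Q e he ↔ ∃ w, 𝐁 e w = 0 ∧ g = E Q e w := Iff.rfl

theorem E_mem_RS {e : ι → F} (he : Q e = 0) {w : ι → F} (hw : 𝐁 e w = 0) : E Q e w ∈ RS Q e he :=
  ⟨w, hw, rfl⟩

theorem E_pow {e w : ι → F} (he : Q e = 0) (hw : 𝐁 e w = 0) (k : ℕ) :
    (E Q e w) ^ k = E Q e (k • w) := by
  induction k with
  | zero => rw [pow_zero, zero_smul, E_zero]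
  | succ k ih =>
    rw [pow_succ, ih, E_mul Q he (by rw [QuadraticMap.polar_smul_right_of_tower, hw, smul_zero]) hw,
      succ_nsmul]

theorem E_fix_self {e w : ι → F} (he : Q e = 0) (hw : 𝐁 e w = 0) : E Q e w ∙ e = e := by
  rw [E_apply Q he hw, hw, polar_self_of_singular Q he]
  simp

theorem E_apply_orth {e w x : ι → F} (he : Q e = 0) (hw : 𝐁 e w = 0) (hx : 𝐁 e x = 0) :
    E Q e w ∙ x = x + 𝐁 x w • e := by
  rw [E_apply Q he hw, QuadraticMap.polar_comm ⇑Q x e, hx]
  simp

theorem RS_conj (g : OO) {e : ι → F} (he : Q e = 0) {x : OO} (hx : x ∈ RS Q e he) :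
    g * x * g⁻¹ ∈ RS Q (g ∙ e) (by rw [iso_apply (Q := ⇑Q)]; exact he) := by
  obtain ⟨w, hw, rfl⟩ := hx
  exact ⟨g ∙ w, by rw [polar_iso]; exact hw, E_conj Q g he hw⟩

theorem RS_smul {e : ι → F} (he : Q e = 0) {c : F} (hc : c ≠ 0) :
    RS Q (c • e) (by rw [QuadraticMap.map_smul, he, smul_zero]) = RS Q e he := by
  ext g
  constructor
  · rintro ⟨w, hw, rfl⟩
    rw [QuadraticMap.polar_smul_left, smul_eq_mul] at hw
    have hw' := (mul_eq_zero.1 hw).resolve_left hc
    exact ⟨c • w, by rw [QuadraticMap.polar_smul_right, hw', smul_zero], E_smul Q he hw' c⟩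
  · rintro ⟨w, hw, rfl⟩
    refine ⟨c⁻¹ • w, by
      rw [QuadraticMap.polar_smul_left, QuadraticMap.polar_smul_right, hw]; simp, ?_⟩
    rw [E_smul Q he (by rw [QuadraticMap.polar_smul_right, hw, smul_zero]), smul_smul,
      mul_inv_cancel₀ hc, one_smul]

variable (hQ : (QuadraticMap.polarBilin Q).Nondegenerate)
include hQ

/-- `E(e,w)` determines `w` modulo `e`. -/
theorem sub_mem_span_of_E_eq {e w w' : ι → F} (he0 : e ≠ 0) (he : Q e = 0) (hw : 𝐁 e w = 0)
    (hw' : 𝐁 e w' = 0) (h : E Q e w = E Q e w') : w - w' ∈ Submodule.span F {e} := by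
  obtain ⟨f, -, hef⟩ := exists_hyp_partner Q hQ he0 he
  have h1 : E Q e w ∙ f = E Q e w' ∙ f := by rw [h]
  rw [E_apply Q he hw, E_apply Q he hw', QuadraticMap.polar_comm ⇑Q f e, hef] at h1
  rw [Submodule.mem_span_singleton]
  refine ⟨(𝐁 f w - Q w * 1) - (𝐁 f w' - Q w' * 1), ?_⟩
  have h2 : w - w' = ((𝐁 f w - Q w * 1) • e) - ((𝐁 f w' - Q w' * 1) • e) := by
    have h3 : f + (𝐁 f w - Q w * 1) • e - w = f + (𝐁 f w' - Q w' * 1) • e - w' := by
      simpa using h1
    have h4 : (𝐁 f w - Q w * 1) • e - w = (𝐁 f w' - Q w' * 1) • e - w' := by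
      rw [add_sub_assoc, add_sub_assoc] at h3
      exact add_left_cancel h3
    rw [sub_eq_sub_iff_add_eq_add] at h4 ⊢
    rw [add_comm, ← h4, add_comm]
  rw [h2, sub_smul]

theorem mem_span_of_E_eq_one {e w : ι → F} (he0 : e ≠ 0) (he : Q e = 0) (hw : 𝐁 e w = 0)
    (h : E Q e w = 1) : w ∈ Submodule.span F {e} := by
  have := sub_mem_span_of_E_eq Q hQ he0 he hw (w' := 0) (by simp) (by rw [h, E_zero])
  rwa [sub_zero] at this

/-- a vector spanning a line stabilised by the whole root group is a multiple of `e` -/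
theorem mem_span_of_RS_stable (hn : 3 ≤ Fintype.card ι) {e x : ι → F} (he0 : e ≠ 0) (he : Q e = 0)
    (h : ∀ w, 𝐁 e w = 0 → E Q e w ∙ x ∈ Submodule.span F {x}) : x ∈ Submodule.span F {e} := by
  by_cases hx0 : x = 0
  · rw [hx0]; exact Submodule.zero_mem _
  by_cases hxe : 𝐁 e x = 0
  · apply mem_span_of_orth Q hQ
    intro w hw
    by_contra hne
    obtain ⟨c, hc⟩ := Submodule.mem_span_singleton.1 (h w hw)
    rw [E_apply_orth Q he hw hxe] at hc
    -- (c - 1) x = B(x,w) e
    have h1 : (c - 1) • x = 𝐁 x w • e := by rw [sub_smul, one_smul, hc]; abel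
    by_cases hc1 : c = 1
    · rw [hc1, sub_self, zero_smul] at h1
      exact (smul_ne_zero hne he0) h1.symm
    · -- then x is a multiple of e, so B(x,w)=0
      have h2 : x = ((c - 1)⁻¹ * 𝐁 x w) • e := by
        rw [mul_smul, ← h1, smul_smul, inv_mul_cancel₀ (sub_ne_zero.2 hc1), one_smul]
      apply hne
      rw [h2, QuadraticMap.polar_smul_left, hw, smul_zero]
  · exfalso
    -- choose w ⊥ e outside span {x, e}
    have hex : ∃ w, 𝐁 e w = 0 ∧ w ∉ Submodule.span F {e} := by
      by_contra hcon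
      push Not at hcon
      have hle : (Submodule.span F {e})ᗮ ≤ Submodule.span F {e} := by
        intro w hw
        exact hcon w ((mem_orth_span_singleton Q).1 hw)
      have h1 := Submodule.finrank_mono hle
      have h2 := finrank_orth_add Q hQ (Submodule.span F {e})
      rw [finrank_span_singleton he0] at h1 h2
      omega
    obtain ⟨w, hw, hwe⟩ := hex
    obtain ⟨c, hc⟩ := Submodule.mem_span_singleton.1 (h w hw)
    have h1 : 𝐁 e (E Q e w ∙ x) = 𝐁 e x := by
      have := polar_iso Q (E Q e w) e x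
      rwa [E_fix_self Q he hw] at this
    rw [← hc, QuadraticMap.polar_smul_right, smul_eq_mul] at h1
    have hc1 : c = 1 := by
      have : (c - 1) * 𝐁 e x = 0 := by linear_combination h1
      exact sub_eq_zero.1 ((mul_eq_zero.1 this).resolve_right hxe)
    rw [hc1, one_smul, E_apply Q he hw] at hc
    have h2 : 𝐁 x e • w = (𝐁 x w - Q w * 𝐁 x e) • e := by
      have h3 : x + ((𝐁 x w - Q w * 𝐁 x e) • e - 𝐁 x e • w) = x + 0 := by
        rw [add_zero, ← add_sub_assoc]; exact hc.symm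
      exact (sub_eq_zero.1 (add_left_cancel h3)).symm
    apply hwe
    rw [Submodule.mem_span_singleton]
    have hxe' : 𝐁 x e ≠ 0 := by rw [QuadraticMap.polar_comm]; exact hxe
    refine ⟨(𝐁 x e)⁻¹ * (𝐁 x w - Q w * 𝐁 x e), ?_⟩
    rw [mul_smul, ← h2, smul_smul, inv_mul_cancel₀ hxe', one_smul]

theorem fixS_RS (hn : 3 ≤ Fintype.card ι) {e : ι → F} (he0 : e ≠ 0) (he : Q e = 0) :
    fixS Q (RS Q e he) = Submodule.span F {e} := by
  apply le_antisymm
  · intro x hx
    apply mem_span_of_RS_stable Q hQ hn he0 he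
    intro w hw
    rw [hx _ (E_mem_RS Q he hw)]
    exact Submodule.mem_span_singleton_self x
  · rw [Submodule.span_singleton_le_iff_mem]
    rintro _ ⟨w, hw, rfl⟩
    exact E_fix_self Q he hw

omit hQ in
theorem RS_isPGroup {p : ℕ} [Fact p.Prime] [CharP F p] {e : ι → F} (he : Q e = 0) :
    IsPGroup p (RS Q e he) := by
  rintro ⟨_, w, hw, rfl⟩
  refine ⟨1, Subtype.ext ?_⟩
  rw [pow_one, Subgroup.coe_pow, Subgroup.coe_one, E_pow Q he hw]
  have : p • w = 0 := by
    funext i
    simp [CharP.cast_eq_zero F p]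
  rw [this, E_zero]

theorem RS_ne_bot (hn : 3 ≤ Fintype.card ι) {e : ι → F} (he0 : e ≠ 0) (he : Q e = 0) :
    RS Q e he ≠ ⊥ := by
  intro h
  have h1 := fixS_RS Q hQ hn he0 he
  have h2 : fixS Q (RS Q e he) = ⊤ := by
    rw [h, eq_top_iff]
    intro x _ s hs
    rw [Subgroup.mem_bot.1 hs, one_mulVec']
  rw [h2] at h1
  have h3 := congrArg (fun W : Submodule F (ι → F) => finrank F W) h1
  simp only [finrank_top, Module.finrank_fintype_fun_eq_card, finrank_span_singleton he0] at h3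
  omega

omit hQ in
theorem finite_SPt [Finite F] : Finite (SPt Q) := by
  unfold SPt
  have : Finite (Submodule F (ι → F)) :=
    Finite.of_injective (fun W : Submodule F (ι → F) => (W : Set (ι → F))) SetLike.coe_injective
  infer_instance

/-- every `p`-subgroup of the isometry group fixes a singular point -/
theorem exists_fixed_pt [Finite F] {p : ℕ} [Fact p.Prime] [CharP F p] (hn : 3 ≤ Fintype.card ι)
    {S : Subgroup OO} (hS : IsPGroup p S) :
    ∃ e : ι → F, e ≠ 0 ∧ Q e = 0 ∧ ∀ s ∈ S, s ∙ e ∈ Submodule.span F {e} := by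
  have := finite_SPt Q
  obtain ⟨e₀, -, he₀0, he₀⟩ := exists_singular_orth Q hQ (S := ⊥) (by simp; omega)
  -- the root group has a unique fixed point
  have h1 : MulAction.fixedPoints ↥(RS Q e₀ he₀) (SPt Q) = {mkPt Q he₀0 he₀} := by
    ext P
    rw [MulAction.mem_fixedPoints, Set.mem_singleton_iff]
    constructor
    · intro h
      obtain ⟨x, hx0, hx, rfl⟩ := exists_rep Q P
      rw [eq_comm, mkPt_eq_iff]
      apply mem_span_of_RS_stable Q hQ hn he₀0 he₀
      intro w hw
      have h2 := h ⟨E Q e₀ w, E_mem_RS Q he₀ hw⟩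
      have h3 : img Q (E Q e₀ w) (Submodule.span F {x}) = Submodule.span F {x} :=
        congrArg Subtype.val h2
      rw [← h3]
      exact (mem_img Q).2 ⟨x, Submodule.mem_span_singleton_self x, rfl⟩
    · rintro rfl ⟨_, w, hw, rfl⟩
      apply Subtype.ext
      change img Q (E Q e₀ w) (Submodule.span F {e₀}) = Submodule.span F {e₀}
      rw [img_span_singleton, E_fix_self Q he₀ hw]
  have h2 := (RS_isPGroup (p := p) Q he₀).card_modEq_card_fixedPoints (SPt Q)
  rw [h1] at h2
  have h3 := hS.card_modEq_card_fixedPoints (SPt Q)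
  have h4 : Nat.card (MulAction.fixedPoints ↥S (SPt Q)) ≠ 0 := by
    intro h0
    rw [h0] at h3
    have h5 := h2.symm.trans h3
    simp only [Nat.card_eq_fintype_card, Fintype.card_unique, Set.card_singleton] at h5
    have hp := (Fact.out : p.Prime).one_lt
    rw [Nat.ModEq, Nat.mod_eq_of_lt hp, Nat.zero_mod] at h5
    exact one_ne_zero h5
  have h5 : Nonempty (MulAction.fixedPoints ↥S (SPt Q)) := by
    by_contra hne
    rw [not_nonempty_iff] at hne
    exact h4 Nat.card_of_isEmpty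
  obtain ⟨P, hP⟩ := h5
  obtain ⟨x, hx0, hx, rfl⟩ := exists_rep Q P
  refine ⟨x, hx0, hx, fun s hs => ?_⟩
  have h6 := MulAction.mem_fixedPoints.1 hP ⟨s, hs⟩
  have h7 : img Q s (Submodule.span F {x}) = Submodule.span F {x} := congrArg Subtype.val h6
  rw [← h7]
  exact (mem_img Q).2 ⟨x, Submodule.mem_span_singleton_self x, rfl⟩

end Cfsg.Agent.Lib.Helper18OPtB
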