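import Mathlib
import Cfsg.Agent.Lib.Helper18OPtB

/-!
# Automorphisms of `PΩ(Q)` permute the singular points, part C

The largest normal `p`-subgroup (modulo scalars) of the stabiliser in `Ω` of a singular point
`<e>` is the root group `{E(e,w)}`.
-/

set_option autoImplicit false
set_option linter.unusedSectionVars false

namespace Cfsg.Agent.Lib.Helper18OPtC

open scoped Matrix
open Module
open Cfsg.Agent.Lib.Helper49Orth Cfsg.Agent.Lib.Helper49Hyp Cfsg.Agent.Lib.Helper18Hyp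
  Cfsg.Agent.Lib.Helper49Eich Cfsg.Agent.Lib.Helper49Geo Cfsg.Agent.Lib.Helper49EichGen
  Cfsg.Agent.Lib.Helper49Fam Cfsg.Agent.Lib.Helper49Trans Cfsg.Agent.Lib.Helper49CharTwoA
  Cfsg.Agent.Lib.Helper49Prim Cfsg.Agent.Lib.Helper49Perfect Cfsg.Agent.Lib.Helper18OPtA
  Cfsg.Agent.Lib.Helper18OPtB

/-- fixed points for a group acting through a `p`-group -/
theorem exists_fixed_ne_one' {p : ℕ} [Fact p.Prime] {S : Type*} [Group S]
    {X : Type*} [Group X] [Finite X] [MulAction S X] (h0 : ∀ s : S, s • (1 : X) = 1)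
    (hS : ∀ s : S, ∃ k : ℕ, ∀ x : X, s ^ p ^ k • x = x)
    (hp : IsPGroup p X) (hX : ∃ x : X, x ≠ 1) : ∃ x : X, x ≠ 1 ∧ ∀ s : S, s • x = x := by
  have hT : IsPGroup p (MulAction.toPermHom S X).range := by
    rintro ⟨_, s, rfl⟩
    obtain ⟨k, hk⟩ := hS s
    refine ⟨k, Subtype.ext ?_⟩
    rw [Subgroup.coe_pow, Subgroup.coe_one, ← map_pow]
    ext x
    exact hk x
  obtain ⟨x, hx1, hx⟩ := exists_fixed_ne_one (p := p) hT (X := X)
    (by rintro ⟨_, s, rfl⟩; exact h0 s) hp hX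
  exact ⟨x, hx1, fun s => hx ⟨_, s, rfl⟩⟩

variable {F : Type*} [Field F]
variable {ι : Type} [Fintype ι] [DecidableEq ι] (Q : QuadraticForm F (ι → F))

local notation "𝐁" => QuadraticMap.polar (DFunLike.coe Q)
local notation:max W "ᗮ" => LinearMap.BilinForm.orthogonal (QuadraticMap.polarBilin Q) W
local notation "OO" => Subtype (fun x => x ∈ Cfsg.isometryGroup F (DFunLike.coe Q))
local notation:70 g:70 " ∙ " x:71 =>
  Matrix.mulVec (Units.val (Subtype.val g)) x

/-- The part of the root group with parameter in a subspace. -/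
noncomputable def RSX (e : ι → F) (he : Q e = 0) (X : Submodule F (ι → F)) : Subgroup OO where
  carrier := {g | ∃ w ∈ X, 𝐁 e w = 0 ∧ g = E Q e w}
  one_mem' := ⟨0, X.zero_mem, by simp, (E_zero Q e).symm⟩
  mul_mem' := by
    rintro _ _ ⟨w, hwX, hw, rfl⟩ ⟨w', hwX', hw', rfl⟩
    exact ⟨w + w', X.add_mem hwX hwX', by rw [QuadraticMap.polar_add_right, hw, hw', add_zero],
      E_mul Q he hw hw'⟩
  inv_mem' := by
    rintro _ ⟨w, hwX, hw, rfl⟩
    exact ⟨-w, X.neg_mem hwX, by rw [QuadraticMap.polar_neg_right, hw, neg_zero], E_inv Q he hw⟩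

theorem RSX_le (e : ι → F) (he : Q e = 0) (X : Submodule F (ι → F)) : RSX Q e he X ≤ RS Q e he := by
  rintro _ ⟨w, -, hw, rfl⟩
  exact ⟨w, hw, rfl⟩

/-- an isometry acting as a scalar commutes with everything -/
theorem commute_of_scalar {g : OO} {ε : F} (h : ∀ x, g ∙ x = ε • x) (y : OO) : g * y = y * g := by
  apply ext_mulVec
  intro x
  rw [mul_mulVec, mul_mulVec, h, h, Matrix.mulVec_smul]

theorem conj_E_of_eigen (b : OO) {e w : ι → F} (he : Q e = 0) (hw : 𝐁 e w = 0) {l : F}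
    (hl : b ∙ e = l • e) (hl0 : l ≠ 0) : b * E Q e w * b⁻¹ = E Q e (l • (b ∙ w)) := by
  have h1 : 𝐁 e (b ∙ w) = 0 := by
    have := polar_iso Q b e w
    rw [hl, QuadraticMap.polar_smul_left, hw, smul_eq_mul] at this
    exact (mul_eq_zero.1 this).resolve_left hl0
  rw [E_conj Q b he hw, hl, E_smul Q he h1]

theorem eigen_ne_zero (b : OO) {e : ι → F} (he0 : e ≠ 0) {l : F} (hl : b ∙ e = l • e) : l ≠ 0 := by
  rintro rfl
  rw [zero_smul] at hl
  apply he0
  have := inv_mulVec_mulVec Q b e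
  rw [hl, Matrix.mulVec_zero] at this
  exact this.symm

section Main

variable [Fintype F] {p : ℕ} [Fact p.Prime] [CharP F p]
variable (hQ : (QuadraticMap.polarBilin Q).Nondegenerate) (hn : 5 ≤ Fintype.card ι)
variable {e : ι → F} (he0 : e ≠ 0) (he : Q e = 0) {B : Subgroup ↥(Cfsg.isometryGroup F ⇑Q)}
  (hB1 : B ≤ stab Q (Submodule.span F {e}) ⊓ Cfsg.Omega F ⇑Q)
  (hB2 : ∀ g ∈ stab Q (Submodule.span F {e}) ⊓ Cfsg.Omega F ⇑Q, ∀ b ∈ B, g * b * g⁻¹ ∈ B)
  (hB3 : ∀ b ∈ B, ∃ (k : ℕ) (ε : F), ∀ x : ι → F,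
    (((b ^ p ^ k : ↥(Cfsg.isometryGroup F ⇑Q)) : Matrix.GeneralLinearGroup ι F) :
      Matrix ι ι F) *ᵥ x = ε • x)

omit [Fintype F] in
theorem exists_eigen {g : OO} (hg : g ∈ stab Q (Submodule.span F {e})) : ∃ l : F, g ∙ e = l • e := by
  have h1 := inv_of_le_stab Q (K := Subgroup.zpowers g) (W := Submodule.span F {e})
    (by rw [Subgroup.zpowers_le]; exact hg) g (Subgroup.mem_zpowers g) e
    (Submodule.mem_span_singleton_self e)
  obtain ⟨l, hl⟩ := Submodule.mem_span_singleton.1 h1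
  exact ⟨l, hl.symm⟩

/-- the vectors of `e^⊥` fixed modulo `e` by the twisted action of `B` -/
def TT' (e : ι → F) (B : Subgroup OO) : Submodule F (ι → F) where
  carrier := {w | 𝐁 e w = 0 ∧ ∀ b ∈ B, ∀ l : F, b ∙ e = l • e →
    l • (b ∙ w) - w ∈ Submodule.span F {e}}
  add_mem' := by
    rintro a c ⟨ha, ha'⟩ ⟨hc, hc'⟩
    refine ⟨by rw [QuadraticMap.polar_add_right, ha, hc, add_zero], fun b hb l hl => ?_⟩
    have := Submodule.add_mem _ (ha' b hb l hl) (hc' b hb l hl)
    rw [Matrix.mulVec_add, smul_add]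
    convert this using 1
    abel
  zero_mem' := ⟨by simp, fun b _ l _ => by simp⟩
  smul_mem' := by
    rintro c a ⟨ha, ha'⟩
    refine ⟨by rw [QuadraticMap.polar_smul_right, ha, smul_zero], fun b hb l hl => ?_⟩
    have := Submodule.smul_mem _ c (ha' b hb l hl)
    rw [Matrix.mulVec_smul]
    convert this using 1
    rw [smul_sub, smul_comm]

include hQ he0 he hB1 hB3 in
/-- key step: twisted fixed vectors in invariant subspaces -/
theorem exists_mem_TT' {X : Submodule F (ι → F)} (hX : Inv Q B X)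
    (hXe : X ≤ (Submodule.span F {e})ᗮ) (hex : ∃ w ∈ X, w ∉ Submodule.span F {e}) :
    ∃ w ∈ X, w ∈ TT' Q e B ∧ w ∉ Submodule.span F {e} := by
  have hconj : ∀ b ∈ B, ∀ x ∈ RSX Q e he X, b * x * b⁻¹ ∈ RSX Q e he X := by
    rintro b hb _ ⟨w, hwX, hw, rfl⟩
    obtain ⟨l, hl⟩ := exists_eigen Q (hB1 hb).1
    have hl0 := eigen_ne_zero Q b he0 hl
    refine ⟨l • (b ∙ w), X.smul_mem _ (hX b hb w hwX), ?_, conj_E_of_eigen Q b he hw hl hl0⟩
    exact (mem_orth_span_singleton Q).1 (hXe (X.smul_mem _ (hX b hb w hwX)))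
  let _ : MulAction ↥B ↥(RSX Q e he X) :=
    { smul := fun b x => ⟨(b : OO) * x * (b : OO)⁻¹, hconj b b.2 x x.2⟩
      one_smul := fun x => Subtype.ext (by
        change ((1 : ↥B) : OO) * x * ((1 : ↥B) : OO)⁻¹ = x
        simp)
      mul_smul := fun b c x => Subtype.ext (by
        change ((b * c : ↥B) : OO) * x * ((b * c : ↥B) : OO)⁻¹
          = (b : OO) * ((c : OO) * x * (c : OO)⁻¹) * (b : OO)⁻¹
        rw [Subgroup.coe_mul]
        group) }
  have hsm : ∀ (b : ↥B) (x : ↥(RSX Q e he X)),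
      ((b • x : ↥(RSX Q e he X)) : OO) = (b : OO) * x * (b : OO)⁻¹ := fun _ _ => rfl
  have hfin : Finite OO := by
    have : Finite (Matrix.GeneralLinearGroup ι F) :=
      Finite.of_injective (fun g : Matrix.GeneralLinearGroup ι F => (g : Matrix ι ι F))
        Units.val_injective
    infer_instance
  obtain ⟨w₀, hw₀X, hw₀⟩ := hex
  have hw₀e : 𝐁 e w₀ = 0 := (mem_orth_span_singleton Q).1 (hXe hw₀X)
  obtain ⟨x, hx1, hx⟩ := exists_fixed_ne_one' (p := p) (S := ↥B) (X := ↥(RSX Q e he X))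
    (fun b => Subtype.ext (by rw [hsm]; simp))
    (fun b => by
      obtain ⟨k, ε, hk⟩ := hB3 b b.2
      refine ⟨k, fun x => Subtype.ext ?_⟩
      rw [hsm, Subgroup.coe_pow, commute_of_scalar Q hk, mul_inv_cancel_right])
    ((RS_isPGroup (p := p) Q he).to_le (RSX_le Q e he X))
    ⟨⟨E Q e w₀, w₀, hw₀X, hw₀e, rfl⟩, fun h =>
      hw₀ (mem_span_of_E_eq_one Q hQ he0 he hw₀e (congrArg Subtype.val h))⟩
  obtain ⟨_, w, hwX, hw, rfl⟩ := x
  refine ⟨w, hwX, ⟨hw, fun b hb l hl => ?_⟩, fun hmem => ?_⟩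
  · have hl0 := eigen_ne_zero Q b he0 hl
    have h1 := congrArg Subtype.val (hx ⟨b, hb⟩)
    rw [hsm] at h1
    change b * E Q e w * b⁻¹ = E Q e w at h1
    rw [conj_E_of_eigen Q b he hw hl hl0] at h1
    refine sub_mem_span_of_E_eq Q hQ he0 he ?_ hw h1
    exact (mem_orth_span_singleton Q).1 (hXe (X.smul_mem _ (hX b hb w hwX)))
  · obtain ⟨t, rfl⟩ := Submodule.mem_span_singleton.1 hmem
    apply hx1
    apply Subtype.ext
    exact E_smul_self Q he t

omit [Fintype F] in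
theorem self_mem_TT' (he : Q e = 0) : e ∈ TT' Q e B := by
  refine ⟨polar_self_of_singular Q he, fun b _ l hl => ?_⟩
  rw [hl, smul_smul, Submodule.mem_span_singleton]
  exact ⟨l * l - 1, by rw [sub_smul, one_smul]⟩

omit [Fintype F] in
theorem TT'_le : TT' Q e B ≤ (Submodule.span F {e})ᗮ :=
  fun _ hw => (mem_orth_span_singleton Q).2 hw.1

omit [Fintype F] in
include he0 hB2 in
theorem inv_TT' : Inv Q (stab Q (Submodule.span F {e}) ⊓ Cfsg.Omega F ⇑Q) (TT' Q e B) := by
  intro g hg w hw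
  obtain ⟨m, hm⟩ := exists_eigen Q hg.1
  have hm0 := eigen_ne_zero Q g he0 hm
  refine ⟨?_, fun b hb l hl => ?_⟩
  · have := polar_iso Q g e w
    rw [hm, QuadraticMap.polar_smul_left, hw.1, smul_eq_mul] at this
    exact (mul_eq_zero.1 this).resolve_left hm0
  · have hb' : g⁻¹ * b * g ∈ B := by
      have := hB2 g⁻¹ (Subgroup.inv_mem _ hg) b hb
      rwa [inv_inv] at this
    have h1 : (g⁻¹ * b * g) ∙ e = l • e := by
      rw [mul_mulVec, mul_mulVec, hm, Matrix.mulVec_smul, hl, smul_comm, Matrix.mulVec_smul, ← hm,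
        inv_mulVec_mulVec]
    have h2 := hw.2 _ hb' l h1
    obtain ⟨c, hc⟩ := Submodule.mem_span_singleton.1 h2
    have h3 : g ∙ (l • ((g⁻¹ * b * g) ∙ w) - w) = l • (b ∙ (g ∙ w)) - g ∙ w := by
      rw [Matrix.mulVec_sub, Matrix.mulVec_smul, mul_mulVec, mul_mulVec, mulVec_inv_mulVec]
    rw [← h3, ← hc, Matrix.mulVec_smul, hm, smul_smul]
    exact Submodule.smul_mem _ _ (Submodule.mem_span_singleton_self e)

include hQ hn he0 he hB1 hB2 hB3 in
theorem TT'_eq : TT' Q e B = (Submodule.span F {e})ᗮ := by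
  set T := TT' Q e B with hT
  have hinv := inv_TT' Q he0 hB2
  -- no vector of `T ⊓ Tᗮ` outside `span e`
  have hB : T ⊓ Tᗮ ≤ Submodule.span F {e} := by
    intro x hx
    by_contra hxe
    have hex : ∃ y, 𝐁 e y = 0 ∧ 𝐁 x y ≠ 0 := by
      by_contra hcon
      apply hxe
      apply mem_span_of_orth Q hQ
      intro y hy
      by_contra hne
      exact hcon ⟨y, hy, hne⟩
    obtain ⟨a, ha, hea, hxa⟩ := exists_singular_perp Q hQ hn he0 hex
    obtain ⟨z, hzS, hz⟩ := exists_nonsingular_orth Q hQ (S := Submodule.span F {e, a})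
      (by have := finrank_span_pair_le e a; omega)
    rw [mem_orth_span_pair] at hzS
    have hg : E Q a z ∈ stab Q (Submodule.span F {e}) ⊓ Cfsg.Omega F ⇑Q := by
      refine ⟨mem_stab_of_le Q ?_, E_mem_Omega Q hQ hn ha hzS.2⟩
      intro y hy
      obtain ⟨t, rfl⟩ := Submodule.mem_span_singleton.1 hy
      rw [Matrix.mulVec_smul, E_apply Q ha hzS.2, hzS.1, hea]
      simpa using Submodule.smul_mem _ t (Submodule.mem_span_singleton_self e)
    have h1 := hinv _ hg x hx.1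
    have h2 := mem_orth.1 hx.2 _ h1
    have h3 : 𝐁 x x = 0 := mem_orth.1 hx.2 _ hx.1
    rw [E_apply Q ha hzS.2, QuadraticMap.polar_sub_left, QuadraticMap.polar_add_left,
      QuadraticMap.polar_smul_left, QuadraticMap.polar_smul_left, h3,
      QuadraticMap.polar_comm ⇑Q a x, QuadraticMap.polar_comm ⇑Q z x] at h2
    have h4 : Q z * (𝐁 x a * 𝐁 x a) = 0 := by
      simp only [smul_eq_mul] at h2
      linear_combination -h2
    exact (mul_ne_zero hz (mul_ne_zero hxa hxa)) h4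
  by_contra hne
  have hlt : T < (Submodule.span F {e})ᗮ := lt_of_le_of_ne (TT'_le Q) hne
  have h1 := Submodule.finrank_lt_finrank_of_lt hlt
  have h2 := finrank_orth_add Q hQ (Submodule.span F {e})
  have h3 := finrank_orth_add Q hQ T
  rw [finrank_span_singleton he0] at h2
  have hex : ∃ w ∈ Tᗮ, w ∉ Submodule.span F {e} := by
    by_contra hcon
    push Not at hcon
    have h4 := Submodule.finrank_mono (show Tᗮ ≤ Submodule.span F {e} from hcon)
    rw [finrank_span_singleton he0] at h4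
    omega
  have hXe : Tᗮ ≤ (Submodule.span F {e})ᗮ := by
    intro w hw
    rw [mem_orth_span_singleton]
    exact mem_orth.1 hw e (self_mem_TT' Q he)
  obtain ⟨w, hw1, hw2, hw3⟩ := exists_mem_TT' (p := p) Q hQ he0 he hB1 hB3
    (Inv.mono Q (Inv.orth Q hinv) hB1) hXe hex
  exact hw3 (hB ⟨hw2, hw1⟩)

include hQ hn he0 he hB1 hB2 hB3 in
/-- **The normal `p`-subgroups of a point stabiliser** lie in the root group, up to scalars. -/
theorem normal_p_le : ∀ b ∈ B, ∃ (w : ι → F) (ε : F), 𝐁 e w = 0 ∧ ∀ x, b ∙ x = ε • (E Q e w ∙ x) := by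
  intro b hb
  have hT := TT'_eq (p := p) Q hQ hn he0 he hB1 hB2 hB3
  obtain ⟨l, hl⟩ := exists_eigen Q (hB1 hb).1
  have hl0 := eigen_ne_zero Q b he0 hl
  have key : ∀ w, 𝐁 e w = 0 → ∃ c : F, l • (b ∙ w) = w + c • e := by
    intro w hw
    have h1 : w ∈ TT' Q e B := by rw [hT, mem_orth_span_singleton]; exact hw
    obtain ⟨c, hc⟩ := Submodule.mem_span_singleton.1 (h1.2 b hb l hl)
    exact ⟨c, by rw [hc]; abel⟩
  -- `l ^ 2 = 1`
  have hll : l * l = 1 := by
    obtain ⟨w, hwS, hw⟩ := exists_nonsingular_orth Q hQ (S := Submodule.span F {e})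
      (by rw [finrank_span_singleton he0]; omega)
    rw [mem_orth_span_singleton] at hwS
    obtain ⟨c, hc⟩ := key w hwS
    have h1 := congrArg Q hc
    rw [QuadraticMap.map_smul, iso_apply (Q := ⇑Q), Q_add_smul', he,
      QuadraticMap.polar_comm ⇑Q w e, hwS] at h1
    have h2 : (l * l - 1) * Q w = 0 := by
      simp only [smul_eq_mul] at h1
      linear_combination h1
    exact sub_eq_zero.1 ((mul_eq_zero.1 h2).resolve_right hw)
  obtain ⟨f, hf, hef⟩ := exists_hyp_partner Q hQ he0 he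
  set v := l • (b ∙ f) - f with hv
  have hbf : l • (b ∙ f) = f + v := by rw [hv]; abel
  have hev : 𝐁 e v = 0 := by
    have h1 := polar_iso Q b e f
    rw [hl, QuadraticMap.polar_smul_left, hef, smul_eq_mul] at h1
    rw [hv, QuadraticMap.polar_sub_right, QuadraticMap.polar_smul_right, hef, smul_eq_mul, h1,
      sub_self]
  have hev' : 𝐁 e (-v) = 0 := by rw [QuadraticMap.polar_neg_right, hev, neg_zero]
  have hQv : Q v + 𝐁 f v = 0 := by
    have h1 := congrArg Q hbf
    rw [QuadraticMap.map_smul, iso_apply (Q := ⇑Q), hf, Q_add, hf] at h1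
    simp only [smul_eq_mul, mul_zero, zero_add] at h1
    exact h1.symm
  have hfE : l • (b ∙ f) = E Q e (-v) ∙ f := by
    rw [E_apply Q he hev', QuadraticMap.polar_neg_right, QuadraticMap.map_neg,
      QuadraticMap.polar_comm ⇑Q f e, hef, hbf]
    have : (-𝐁 f v - Q v * 1) = 0 := by linear_combination -hQv
    rw [this]
    simp
  have hwE : ∀ w, 𝐁 e w = 0 → l • (b ∙ w) = E Q e (-v) ∙ w := by
    intro w hw
    obtain ⟨c, hc⟩ := key w hw
    have h1 : 𝐁 (l • (b ∙ w)) (l • (b ∙ f)) = 𝐁 w f := by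
      rw [QuadraticMap.polar_smul_left, QuadraticMap.polar_smul_right, polar_iso, smul_smul, hll,
        one_smul]
    rw [hc, hbf, QuadraticMap.polar_add_left, QuadraticMap.polar_add_right,
      QuadraticMap.polar_add_right, QuadraticMap.polar_smul_left, QuadraticMap.polar_smul_left,
      hef, hev] at h1
    have h2 : c = - 𝐁 w v := by
      simp only [smul_eq_mul, mul_one, mul_zero, add_zero] at h1
      linear_combination h1
    rw [hc, E_apply_orth Q he hev' hw, QuadraticMap.polar_neg_right, h2]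
  refine ⟨-v, l, hev', fun x => ?_⟩
  have hx : x = 𝐁 e x • f + (x - 𝐁 e x • f) := by abel
  have h1 : 𝐁 e (x - 𝐁 e x • f) = 0 := by
    rw [QuadraticMap.polar_sub_right, QuadraticMap.polar_smul_right, hef]
    simp
  have h2 : l • (b ∙ x) = E Q e (-v) ∙ x := by
    conv_lhs => rw [hx]
    conv_rhs => rw [hx]
    rw [Matrix.mulVec_add, Matrix.mulVec_add, Matrix.mulVec_smul, Matrix.mulVec_smul, smul_add,
      hwE _ h1, smul_comm, hfE]
  rw [← h2, smul_smul, hll, one_smul]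

end Main

end Cfsg.Agent.Lib.Helper18OPtC
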