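import Mathlib
import Cfsg.Agent.Lib.Helper18OPtC
import Cfsg.Agent.Lib.Helper49Witt2

/-!
# Automorphisms of `PΩ(Q)` permute the singular points, part D

The unipotent radical of the stabiliser of a totally singular subspace.
-/

set_option autoImplicit false
set_option linter.unusedSectionVars false

namespace Cfsg.Agent.Lib.Helper18OPtD

open scoped Matrix commutatorElement
open Module
open Cfsg.Agent.Lib.Helper49Orth Cfsg.Agent.Lib.Helper49Hyp Cfsg.Agent.Lib.Helper18Hyp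
  Cfsg.Agent.Lib.Helper49Eich Cfsg.Agent.Lib.Helper49Geo Cfsg.Agent.Lib.Helper49EichGen
  Cfsg.Agent.Lib.Helper49Fam Cfsg.Agent.Lib.Helper49Trans Cfsg.Agent.Lib.Helper49CharTwoA
  Cfsg.Agent.Lib.Helper49Prim Cfsg.Agent.Lib.Helper49Perfect Cfsg.Agent.Lib.Helper18OPtA
  Cfsg.Agent.Lib.Helper18OPtB Cfsg.Agent.Lib.Helper18OPtC Cfsg.Agent.Lib.Helper49Witt2

variable {F : Type*} [Field F]
variable {ι : Type} [Fintype ι] [DecidableEq ι] (Q : QuadraticForm F (ι → F))

local notation "𝐁" => QuadraticMap.polar (DFunLike.coe Q)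
local notation:max W "ᗮ" => LinearMap.BilinForm.orthogonal (QuadraticMap.polarBilin Q) W
local notation "OO" => Subtype (fun x => x ∈ Cfsg.isometryGroup F (DFunLike.coe Q))
local notation:70 g:70 " ∙ " x:71 =>
  Matrix.mulVec (Units.val (Subtype.val g)) x

/-- The unipotent radical of the stabiliser of a totally singular subspace. -/
def UR (R : Submodule F (ι → F)) (hR : TS Q R) : Subgroup OO where
  carrier := {g | (∀ x ∈ R, g ∙ x = x) ∧ ∀ x ∈ Rᗮ, g ∙ x - x ∈ R}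
  one_mem' := ⟨fun x _ => one_mulVec' Q x, fun x _ => by rw [one_mulVec', sub_self]; exact R.zero_mem⟩
  mul_mem' := by
    rintro a b ⟨ha1, ha2⟩ ⟨hb1, hb2⟩
    refine ⟨fun x hx => by rw [mul_mulVec, hb1 x hx, ha1 x hx], fun x hx => ?_⟩
    have h1 : b ∙ x = x + (b ∙ x - x) := by abel
    rw [mul_mulVec, h1, Matrix.mulVec_add, ha1 _ (hb2 x hx)]
    have h2 : a ∙ x + (b ∙ x - x) - x = (a ∙ x - x) + (b ∙ x - x) := by abel
    rw [h2]
    exact R.add_mem (ha2 x hx) (hb2 x hx)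
  inv_mem' := by
    rintro a ⟨ha1, ha2⟩
    have h0 : ∀ x ∈ R, a⁻¹ ∙ x = x := by
      intro x hx
      have := inv_mulVec_mulVec Q a x
      rwa [ha1 x hx] at this
    refine ⟨h0, fun x hx => ?_⟩
    have h1 := h0 _ (ha2 x hx)
    rw [Matrix.mulVec_sub, inv_mulVec_mulVec] at h1
    have h2 : a⁻¹ ∙ x - x = -(a ∙ x - x) := by rw [← h1]; abel
    rw [h2]
    exact R.neg_mem (ha2 x hx)

theorem mem_UR {R : Submodule F (ι → F)} {hR : TS Q R} {g : OO} :
    g ∈ UR Q R hR ↔ (∀ x ∈ R, g ∙ x = x) ∧ ∀ x ∈ Rᗮ, g ∙ x - x ∈ R := Iff.rfl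

theorem UR_conj {R : Submodule F (ι → F)} (hR : TS Q R) {k g : OO} (hk : k ∈ stab Q R)
    (hg : g ∈ UR Q R hR) : k * g * k⁻¹ ∈ UR Q R hR := by
  have hi : Inv Q (stab Q R) R := inv_of_le_stab Q le_rfl
  have hk' := (stab Q R).inv_mem hk
  refine ⟨fun x hx => ?_, fun x hx => ?_⟩
  · rw [mul_mulVec, mul_mulVec, hg.1 _ (hi _ hk' x hx), mulVec_inv_mulVec]
  · have h1 := hi k hk _ (hg.2 _ (Inv.orth Q hi _ hk' x hx))
    rw [Matrix.mulVec_sub, mulVec_inv_mulVec] at h1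
    rw [mul_mulVec, mul_mulVec]
    exact h1

theorem E_mem_UR {R : Submodule F (ι → F)} (hR : TS Q R) {r w : ι → F} (hr : r ∈ R)
    (hw : w ∈ Rᗮ) : E Q r w ∈ UR Q R hR := by
  have hrw : 𝐁 r w = 0 := mem_orth.1 hw r hr
  refine ⟨fun x hx => ?_, fun x hx => ?_⟩
  · rw [E_apply Q (hR r hr) hrw, mem_orth.1 hw x hx, hR.polar_eq_zero hx hr]
    simp
  · rw [E_apply Q (hR r hr) hrw, QuadraticMap.polar_comm ⇑Q x r, mem_orth.1 hx r hr]
    simp only [mul_zero, sub_zero, zero_smul, add_sub_cancel_left]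
    exact R.smul_mem _ hr

theorem UR_sub_mem_orth {R : Submodule F (ι → F)} (hR : TS Q R) {g : OO} (hg : g ∈ UR Q R hR)
    (x : ι → F) : g ∙ x - x ∈ Rᗮ := by
  rw [mem_orth]
  intro r hr
  rw [QuadraticMap.polar_sub_right]
  have := polar_iso Q g r x
  rw [hg.1 r hr] at this
  rw [this, sub_self]

theorem UR_isPGroup {p : ℕ} [Fact p.Prime] [CharP F p] [Nonempty ι] {R : Submodule F (ι → F)}
    (hR : TS Q R) : IsPGroup p (UR Q R hR) := by
  rintro ⟨g, hg⟩
  refine ⟨2, Subtype.ext ?_⟩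
  rw [Subgroup.coe_pow, Subgroup.coe_one]
  apply iso_ext
  set M : Matrix ι ι F := ((g : Matrix.GeneralLinearGroup ι F) : Matrix ι ι F) with hM
  have hN : (M - 1) ^ 3 = 0 := by
    apply Matrix.mulVec_injective
    funext x
    have e : ∀ y, (M - 1) *ᵥ y = M *ᵥ y - y := fun y => by rw [Matrix.sub_mulVec, Matrix.one_mulVec]
    rw [pow_succ, pow_two, ← Matrix.mulVec_mulVec, ← Matrix.mulVec_mulVec, e x, e (M *ᵥ x - x),
      e, Matrix.zero_mulVec]
    have h1 := UR_sub_mem_orth Q hR hg x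
    have h2 := hg.2 _ h1
    have h3 := hg.1 _ h2
    exact sub_eq_zero.2 h3
  have h1 : M ^ p ^ 2 = 1 := by
    have h2 : M = (M - 1) + 1 := by abel
    have hp2 : 3 ≤ p ^ 2 := by
      have := (Fact.out : p.Prime).two_le
      nlinarith
    rw [h2, add_pow_char_pow_of_commute p 2 (Commute.one_right _), one_pow,
      ← Nat.sub_add_cancel hp2, pow_add, hN, mul_zero, zero_add]
  simpa [hM] using h1

/-- two non-commuting elements (even modulo scalars) of the unipotent radical -/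
theorem exists_not_commute (hQ : (QuadraticMap.polarBilin Q).Nondegenerate)
    {R : Submodule F (ι → F)} (hR : TS Q R) (h2 : 2 ≤ finrank F R) (hne : R ≠ Rᗮ) :
    ∃ r₁ ∈ R, ∃ r₂ ∈ R, ∃ w₁ ∈ Rᗮ, ∃ w₂ ∈ Rᗮ,
      ∀ ε : F, ¬ ∀ x, ⁅E Q r₁ w₁, E Q r₂ w₂⁆ ∙ x = ε • x := by
  -- independent vectors
  obtain ⟨r₂, hr₂, hr₂0⟩ : ∃ r ∈ R, r ≠ 0 := by
    apply Submodule.exists_mem_ne_zero_of_ne_bot
    rintro rfl
    simp at h2
  obtain ⟨r₁, hr₁, hr₁2⟩ : ∃ r ∈ R, r ∉ Submodule.span F {r₂} := by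
    by_contra hcon
    push Not at hcon
    have := Submodule.finrank_mono (show R ≤ Submodule.span F {r₂} from hcon)
    rw [finrank_span_singleton hr₂0] at this
    omega
  obtain ⟨w₁, hw₁, w₂, hw₂, hww⟩ : ∃ w₁ ∈ Rᗮ, ∃ w₂ ∈ Rᗮ, 𝐁 w₂ w₁ ≠ 0 := by
    by_contra hcon
    apply hne
    apply le_antisymm hR.le_orth
    have : Rᗮ ≤ Rᗮᗮ := by
      intro z hz
      rw [mem_orth]
      intro w hw
      by_contra h
      exact hcon ⟨z, hz, w, hw, h⟩
    rwa [LinearMap.BilinForm.orthogonal_orthogonal hQ (polarBilin_isRefl Q)] at this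
  refine ⟨r₁, hr₁, r₂, hr₂, w₁, hw₁, w₂, hw₂, fun ε h => ?_⟩
  have hc := comm_E_E Q (hR r₂ hr₂) (hR r₁ hr₁) (hR.polar_eq_zero hr₂ hr₁)
    (mem_orth.1 hw₁ r₁ hr₁) (mem_orth.1 hw₁ r₂ hr₂) (mem_orth.1 hw₂ r₂ hr₂) (mem_orth.1 hw₂ r₁ hr₁)
  rw [hc] at h
  have h0 : 𝐁 r₂ (𝐁 w₂ w₁ • r₁) = 0 := by
    rw [QuadraticMap.polar_smul_right, hR.polar_eq_zero hr₂ hr₁, smul_zero]
  have h1 := h r₂
  rw [E_fix_self Q (hR r₂ hr₂) h0] at h1
  have hε : ε = 1 := by
    by_contra hne1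
    apply hr₂0
    have : (1 - ε) • r₂ = 0 := by rw [sub_smul, one_smul, ← h1, sub_self]
    exact (smul_eq_zero.1 this).resolve_left (sub_ne_zero.2 (Ne.symm hne1))
  have h2 : E Q r₂ (𝐁 w₂ w₁ • r₁) = 1 := by
    apply ext_mulVec
    intro x
    rw [h x, hε, one_smul, one_mulVec']
  have h3 := mem_span_of_E_eq_one Q hQ hr₂0 (hR r₂ hr₂) h0 h2
  apply hr₁2
  have := Submodule.smul_mem _ (𝐁 w₂ w₁)⁻¹ h3
  rwa [smul_smul, inv_mul_cancel₀ hww, one_smul] at this

theorem card_mul_le_of_disjoint {G : Type*} [Group G] [Finite G] {H K L : Subgroup G}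
    (hH : H ≤ L) (hK : K ≤ L) (hd : H ⊓ K = ⊥) : Nat.card H * Nat.card K ≤ Nat.card L := by
  rw [← Nat.card_prod]
  apply Nat.card_le_card_of_injective
    (fun x : ↥H × ↥K => (⟨(x.1 : G) * x.2, L.mul_mem (hH x.1.2) (hK x.2.2)⟩ : ↥L))
  rintro ⟨⟨a, ha⟩, ⟨b, hb⟩⟩ ⟨⟨c, hc⟩, ⟨d, hd'⟩⟩ h
  have h1 : a * b = c * d := congrArg Subtype.val h
  have h2 : c⁻¹ * a = d * b⁻¹ := by
    rw [inv_mul_eq_iff_eq_mul, ← mul_assoc, ← h1, mul_inv_cancel_right]
  have h3 : c⁻¹ * a ∈ H ⊓ K := ⟨H.mul_mem (H.inv_mem hc) ha, h2 ▸ K.mul_mem hd' (K.inv_mem hb)⟩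
  rw [hd, Subgroup.mem_bot] at h3
  have h4 : a = c := by rw [inv_mul_eq_one] at h3; exact h3.symm
  have h5 : b = d := by
    rw [h3] at h2
    exact (mul_inv_eq_one.1 h2.symm).symm
  subst h4 h5
  rfl

theorem finite_OO [Finite F] : Finite OO := by
  have : Finite (Matrix.GeneralLinearGroup ι F) :=
    Finite.of_injective (fun g : Matrix.GeneralLinearGroup ι F => (g : Matrix ι ι F))
      Units.val_injective
  infer_instance

theorem natCard_submodule [Fintype F] (S : Submodule F (ι → F)) :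
    Nat.card ↥S = Fintype.card F ^ finrank F S := by
  classical
  rw [Nat.card_eq_fintype_card, Module.card_eq_pow_finrank (K := F)]

/-- lower bound for the order of the group `Λ² S` -/
theorem card_fixer_ge [Fintype F] (hQ : (QuadraticMap.polarBilin Q).Nondegenerate)
    (hn : 5 ≤ Fintype.card ι) : ∀ (k : ℕ) (S : Submodule F (ι → F)), TS Q S → finrank F S = k →
    Fintype.card F ^ (k * (k - 1) / 2) ≤ Nat.card ↥(fixer Q Sᗮ ⊓ Cfsg.Omega F ⇑Q) := by
  have hfin := finite_OO Q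
  intro k
  induction k with
  | zero =>
    intro S _ _
    have : 0 < Nat.card ↥(fixer Q Sᗮ ⊓ Cfsg.Omega F ⇑Q) := Nat.card_pos
    rw [Nat.zero_mul, Nat.zero_div, pow_zero]
    exact this
  | succ k ih =>
    intro S hS hk
    obtain ⟨t, htS, ht0⟩ : ∃ t ∈ S, t ≠ 0 := by
      apply Submodule.exists_mem_ne_zero_of_ne_bot
      rintro rfl
      simp at hk
    obtain ⟨y, hy⟩ := exists_polar_ne_zero Q hQ ht0
    have hyt : 𝐁 y t ≠ 0 := by rw [QuadraticMap.polar_comm]; exact hy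
    set S₀ := S ⊓ (Submodule.span F {y})ᗮ with hS₀
    have hS₀S : S₀ ≤ S := inf_le_left
    have htS₀ : t ∉ S₀ := fun h => hyt ((mem_orth_span_singleton Q).1 h.2)
    have hsup : S₀ ⊔ Submodule.span F {t} = S := by
      apply le_antisymm
      · exact sup_le hS₀S (by rw [Submodule.span_singleton_le_iff_mem]; exact htS)
      · intro x hx
        have h1 : x = (x - (𝐁 y x / 𝐁 y t) • t) + (𝐁 y x / 𝐁 y t) • t := by abel
        rw [h1]
        apply Submodule.add_mem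
        · apply Submodule.mem_sup_left
          refine ⟨S.sub_mem hx (S.smul_mem _ htS), ?_⟩
          rw [SetLike.mem_coe, mem_orth_span_singleton, QuadraticMap.polar_sub_right, QuadraticMap.polar_smul_right,
            smul_eq_mul, div_mul_cancel₀ _ hyt, sub_self]
        · exact Submodule.mem_sup_right
            (Submodule.smul_mem _ _ (Submodule.mem_span_singleton_self t))
    have hk₀ : finrank F S₀ = k := by
      have := Submodule.finrank_sup_span_singleton htS₀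
      rw [hsup, hk] at this
      omega
    have hTS₀ : TS Q S₀ := hS.mono hS₀S
    have ih' := ih S₀ hTS₀ hk₀
    have hQt := hS t htS
    have hH : fixer Q S₀ᗮ ⊓ Cfsg.Omega F ⇑Q ≤ fixer Q Sᗮ ⊓ Cfsg.Omega F ⇑Q := by
      rintro g ⟨hg1, hg2⟩
      refine ⟨fun x hx => hg1 x ?_, hg2⟩
      rw [mem_orth] at hx ⊢
      exact fun w hw => hx w (hS₀S hw)
    have hK : RSX Q t hQt S₀ ≤ fixer Q Sᗮ ⊓ Cfsg.Omega F ⇑Q := by
      rintro _ ⟨w, hw, htw, rfl⟩
      refine ⟨fun x hx => ?_, E_mem_Omega Q hQ hn hQt htw⟩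
      rw [E_apply Q hQt htw, QuadraticMap.polar_comm ⇑Q x w, QuadraticMap.polar_comm ⇑Q x t,
        mem_orth.1 hx w (hS₀S hw), mem_orth.1 hx t htS]
      simp
    have hd : (fixer Q S₀ᗮ ⊓ Cfsg.Omega F ⇑Q) ⊓ RSX Q t hQt S₀ = ⊥ := by
      rw [eq_bot_iff]
      rintro _ ⟨⟨hg1, -⟩, w, hw, htw, rfl⟩
      have hy0 : y ∈ S₀ᗮ := by
        rw [mem_orth]
        intro s hs
        rw [QuadraticMap.polar_comm]
        exact (mem_orth_span_singleton Q).1 hs.2
      have h1 := hg1 y hy0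
      rw [E_apply Q hQt htw, hS w (hS₀S hw), (mem_orth_span_singleton Q).1 hw.2] at h1
      have h2 : 𝐁 y t • w = 0 := by
        have h3 : y + (0 - 𝐁 y t • w) = y + 0 := by
          rw [add_zero]
          simpa [add_sub_assoc] using h1
        have := add_left_cancel h3
        rwa [zero_sub, neg_eq_zero] at this
      have h3 : w = 0 := (smul_eq_zero.1 h2).resolve_left hyt
      rw [Subgroup.mem_bot, h3, E_zero]
    have hcardK : Fintype.card F ^ k ≤ Nat.card ↥(RSX Q t hQt S₀) := by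
      rw [← hk₀, ← natCard_submodule]
      apply Nat.card_le_card_of_injective (fun w : ↥S₀ => (⟨E Q t w, w, w.2,
        hS.polar_eq_zero htS (hS₀S w.2), rfl⟩ : ↥(RSX Q t hQt S₀)))
      intro w w' h
      have h1 : E Q t (w : ι → F) = E Q t (w' : ι → F) := congrArg Subtype.val h
      have h2 := sub_mem_span_of_E_eq Q hQ ht0 hQt (hS.polar_eq_zero htS (hS₀S w.2))
        (hS.polar_eq_zero htS (hS₀S w'.2)) h1
      obtain ⟨c, hc⟩ := Submodule.mem_span_singleton.1 h2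
      by_cases hc0 : c = 0
      · rw [hc0, zero_smul] at hc
        exact Subtype.ext (sub_eq_zero.1 hc.symm)
      · exfalso
        apply htS₀
        have h3 : c • t ∈ S₀ := hc ▸ S₀.sub_mem w.2 w'.2
        have := S₀.smul_mem c⁻¹ h3
        rwa [smul_smul, inv_mul_cancel₀ hc0, one_smul] at this
    have := card_mul_le_of_disjoint hH hK hd
    rw [Nat.triangle_succ, pow_add]
    exact le_trans (Nat.mul_le_mul ih' hcardK) this

/-- upper bound for the order of a root group -/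
theorem card_RS_le [Fintype F] (hQ : (QuadraticMap.polarBilin Q).Nondegenerate)
    {e : ι → F} (he0 : e ≠ 0) (he : Q e = 0) :
    Nat.card ↥(RS Q e he) ≤ Fintype.card F ^ (Fintype.card ι - 2) := by
  obtain ⟨f, hf, hef⟩ := exists_hyp_partner Q hQ he0 he
  set W := (Submodule.span F {e})ᗮ ⊓ (Submodule.span F {f})ᗮ with hW
  have hlt : W < (Submodule.span F {e})ᗮ := by
    refine lt_of_le_of_ne inf_le_left fun h => ?_
    have h1 : e ∈ W := by
      rw [h, mem_orth_span_singleton]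
      exact polar_self_of_singular Q he
    have h2 := (mem_orth_span_singleton Q).1 h1.2
    rw [QuadraticMap.polar_comm, hef] at h2
    exact one_ne_zero h2
  have h1 := Submodule.finrank_lt_finrank_of_lt hlt
  have h2 := finrank_orth_add Q hQ (Submodule.span F {e})
  rw [finrank_span_singleton he0] at h2
  have h3 : finrank F W ≤ Fintype.card ι - 2 := by omega
  refine le_trans ?_ (Nat.pow_le_pow_right Fintype.card_pos h3)
  rw [← natCard_submodule]
  have : Finite ↥W := inferInstance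
  apply Nat.card_le_card_of_surjective (fun w : ↥W => (⟨E Q e w, w,
    (mem_orth_span_singleton Q).1 w.2.1, rfl⟩ : ↥(RS Q e he)))
  rintro ⟨_, w, hw, rfl⟩
  have hfe : 𝐁 f e = 1 := by rw [QuadraticMap.polar_comm]; exact hef
  refine ⟨⟨w + (-𝐁 f w) • e, ?_, ?_⟩, Subtype.ext (E_add_smul_self Q he hw _)⟩
  · rw [SetLike.mem_coe, mem_orth_span_singleton, QuadraticMap.polar_add_right,
      QuadraticMap.polar_smul_right, hw, polar_self_of_singular Q he]
    simp
  · rw [SetLike.mem_coe, mem_orth_span_singleton, QuadraticMap.polar_add_right,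
      QuadraticMap.polar_smul_right, hfe]
    simp

end Cfsg.Agent.Lib.Helper18OPtD
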