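import Mathlib
import Cfsg.Agent.Lib.Helper18OPtD

/-!
# Automorphisms of `PΩ(Q)` permute the singular points, part E

Wrappers at the level of `Ω` and of `PΩ = Ω / Z(Ω)`.
-/

set_option autoImplicit false
set_option linter.unusedSectionVars false

namespace Cfsg.Agent.Lib.Helper18OPtE

open scoped Matrix commutatorElement
open Module
open Cfsg.Agent.Lib.Helper49Orth Cfsg.Agent.Lib.Helper49Hyp Cfsg.Agent.Lib.Helper18Hyp
  Cfsg.Agent.Lib.Helper49Eich Cfsg.Agent.Lib.Helper49Geo Cfsg.Agent.Lib.Helper49EichGen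
  Cfsg.Agent.Lib.Helper49Fam Cfsg.Agent.Lib.Helper49Trans Cfsg.Agent.Lib.Helper49CharTwoA
  Cfsg.Agent.Lib.Helper49Prim Cfsg.Agent.Lib.Helper49Perfect Cfsg.Agent.Lib.Helper18OPtA
  Cfsg.Agent.Lib.Helper18OPtB Cfsg.Agent.Lib.Helper18OPtC Cfsg.Agent.Lib.Helper49Witt2
  Cfsg.Agent.Lib.Helper18OPtD Cfsg.Agent.Lib.Helper49Center Cfsg.Agent.Lib.Helper49Simple

section Abstract

variable {G : Type*} [Group G] {p : ℕ}

/-- the preimage of a commutative subgroup of exponent `p` of `G / Z(G)` is commutative, if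
`z ^ p = z` on the centre -/
theorem comm_of_comap (hZ : ∀ z ∈ Subgroup.center G, z ^ p = z)
    {A : Subgroup (G ⧸ Subgroup.center G)} (hc : ∀ a ∈ A, ∀ b ∈ A, a * b = b * a)
    (hp : ∀ a ∈ A, a ^ p = 1) {a b : G} (ha : (a : G ⧸ Subgroup.center G) ∈ A)
    (hb : (b : G ⧸ Subgroup.center G) ∈ A) : a * b = b * a := by
  have hz : a⁻¹ * (b⁻¹ * a * b) ∈ Subgroup.center G := by
    rw [← QuotientGroup.eq_one_iff]
    simp only [QuotientGroup.mk_mul, QuotientGroup.mk_inv]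
    have := hc _ ha _ hb
    rw [mul_assoc, this]
    group
  set z := a⁻¹ * (b⁻¹ * a * b) with hzdef
  have h1 : b⁻¹ * a * b = a * z := by rw [hzdef]; group
  have hap : a ^ p ∈ Subgroup.center G := by
    rw [← QuotientGroup.eq_one_iff, QuotientGroup.mk_pow]
    exact hp _ ha
  have h2 : (b⁻¹ * a * b) ^ p = a ^ p := by
    have e : (b⁻¹ * a * b) ^ p = b⁻¹ * a ^ p * b := by
      have := conj_pow (a := b⁻¹) (b := a) (i := p)
      simpa using this
    rw [e, mul_assoc, ← (Subgroup.mem_center_iff.1 hap b), ← mul_assoc, inv_mul_cancel, one_mul]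
  have h3 : (a * z) ^ p = a ^ p * z ^ p := by
    apply Commute.mul_pow
    exact (Subgroup.mem_center_iff.1 hz a)
  rw [h1, h3, hZ z hz] at h2
  have hz1 : z = 1 := by simpa using h2
  rw [hz1, mul_one] at h1
  calc a * b = b * (b⁻¹ * a * b) := by group
    _ = b * a := by rw [h1]

/-- the elements of order dividing `p` in the preimage -/
def hat (hZ : ∀ z ∈ Subgroup.center G, z ^ p = z)
    (A : Subgroup (G ⧸ Subgroup.center G)) (hc : ∀ a ∈ A, ∀ b ∈ A, a * b = b * a)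
    (hp : ∀ a ∈ A, a ^ p = 1) : Subgroup G where
  carrier := {a | (a : G ⧸ Subgroup.center G) ∈ A ∧ a ^ p = 1}
  one_mem' := ⟨A.one_mem, one_pow _⟩
  mul_mem' := by
    rintro a b ⟨ha, ha'⟩ ⟨hb, hb'⟩
    refine ⟨A.mul_mem ha hb, ?_⟩
    rw [Commute.mul_pow (comm_of_comap hZ hc hp ha hb), ha', hb', one_mul]
  inv_mem' := by
    rintro a ⟨ha, ha'⟩
    exact ⟨A.inv_mem ha, by rw [inv_pow, ha', inv_one]⟩

theorem exists_mem_hat (hZ : ∀ z ∈ Subgroup.center G, z ^ p = z)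
    (A : Subgroup (G ⧸ Subgroup.center G)) (hc : ∀ a ∈ A, ∀ b ∈ A, a * b = b * a)
    (hp : ∀ a ∈ A, a ^ p = 1) {x : G ⧸ Subgroup.center G} (hx : x ∈ A) :
    ∃ a ∈ hat hZ A hc hp, (a : G ⧸ Subgroup.center G) = x := by
  obtain ⟨a, rfl⟩ := QuotientGroup.mk_surjective x
  have hap : a ^ p ∈ Subgroup.center G := by
    rw [← QuotientGroup.eq_one_iff, QuotientGroup.mk_pow]
    exact hp _ hx
  set z := a ^ p with hz
  have hzi : (z⁻¹ : G) ∈ Subgroup.center G := Subgroup.inv_mem _ hap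
  have e : ((a * z⁻¹ : G) : G ⧸ Subgroup.center G) = a := by
    rw [QuotientGroup.mk_mul, (QuotientGroup.eq_one_iff _).2 hzi, mul_one]
  refine ⟨a * z⁻¹, ⟨by rw [e]; exact hx, ?_⟩, e⟩
  rw [Commute.mul_pow (Subgroup.mem_center_iff.1 hzi a), hZ _ hzi, ← hz, mul_inv_cancel]

theorem hat_isPGroup [Fact p.Prime] (hZ : ∀ z ∈ Subgroup.center G, z ^ p = z)
    (A : Subgroup (G ⧸ Subgroup.center G)) (hc : ∀ a ∈ A, ∀ b ∈ A, a * b = b * a)
    (hp : ∀ a ∈ A, a ^ p = 1) : IsPGroup p (hat hZ A hc hp) := by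
  rintro ⟨a, ha⟩
  exact ⟨1, Subtype.ext (by rw [pow_one]; exact ha.2)⟩

end Abstract

variable {F : Type*} [Field F] [Fintype F]
variable {ι : Type} [Fintype ι] [DecidableEq ι] (Q : QuadraticForm F (ι → F))

local notation "𝐁" => QuadraticMap.polar (DFunLike.coe Q)
local notation:max W "ᗮ" => LinearMap.BilinForm.orthogonal (QuadraticMap.polarBilin Q) W
local notation "OO" => Subtype (fun x => x ∈ Cfsg.isometryGroup F (DFunLike.coe Q))
local notation "GG" => Subtype (fun x => x ∈ Cfsg.Omega F (DFunLike.coe Q))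
local notation:70 g:70 " ∙ " x:71 =>
  Matrix.mulVec (Units.val (Subtype.val g)) x

variable (hQ : (QuadraticMap.polarBilin Q).Nondegenerate) (hn : 5 ≤ Fintype.card ι)

include hQ hn in
theorem center_scalar {z : GG} (hz : z ∈ Subgroup.center GG) :
    ∃ ε : F, (ε = 1 ∨ ε = -1) ∧ ∀ x, z.1 ∙ x = ε • x := by
  rcases coe_eq_of_mem_center Q hQ hn hz with h | h
  · exact ⟨1, Or.inl rfl, fun x => by rw [h]; simp⟩
  · exact ⟨-1, Or.inr rfl, fun x => by rw [h, Matrix.neg_mulVec, Matrix.one_mulVec]; simp⟩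

omit [Fintype F] in
theorem mem_center_of_scalar {g : GG} {ε : F} (h : ∀ x, g.1 ∙ x = ε • x) :
    g ∈ Subgroup.center GG := by
  rw [Subgroup.mem_center_iff]
  intro y
  apply Subtype.ext
  exact (commute_of_scalar Q h y.1).symm

include hQ hn in
theorem center_pow {p : ℕ} [Fact p.Prime] [CharP F p] {z : GG} (hz : z ∈ Subgroup.center GG) :
    z ^ p = z := by
  obtain ⟨ε, hε, h⟩ := center_scalar Q hQ hn hz
  have hpow : ∀ k : ℕ, ∀ x, (z ^ k).1 ∙ x = ε ^ k • x := by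
    intro k
    induction k with
    | zero => intro x; simp
    | succ k ih =>
      intro x
      rw [pow_succ, Subgroup.coe_mul, mul_mulVec, h, Matrix.mulVec_smul, ih, smul_smul, pow_succ,
        mul_comm]
  have hεp : ε ^ p = ε := by
    rcases hε with rfl | rfl
    · simp
    · rcases (Fact.out : p.Prime).eq_two_or_odd' with h2 | hodd
      · subst h2
        have : (2 : F) = 0 := by exact_mod_cast CharP.cast_eq_zero F 2
        linear_combination this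
      · exact hodd.neg_one_pow
  apply Subtype.ext
  apply ext_mulVec
  intro x
  rw [hpow, hεp, h]

/-- Eichler transformations as elements of `Ω` -/
noncomputable def EG (e w : ι → F) : GG :=
  ⟨E Q e w, by
    by_cases h : Q e = 0 ∧ 𝐁 e w = 0
    · exact E_mem_Omega Q hQ hn h.1 h.2
    · unfold E
      rw [dif_neg h]
      exact one_mem _⟩

theorem coe_EG (e w : ι → F) : (EG Q hQ hn e w).1 = E Q e w := rfl

omit [Fintype F] in
theorem mk_eq_of_scalar {b c : GG} {ε : F} (h : ∀ x, b.1 ∙ x = ε • (c.1 ∙ x)) :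
    (b : GG ⧸ Subgroup.center GG) = c := by
  rw [eq_comm, QuotientGroup.eq]
  apply mem_center_of_scalar Q (ε := ε)
  intro x
  rw [Subgroup.coe_mul, Subgroup.coe_inv, mul_mulVec, h, Matrix.mulVec_smul, inv_mulVec_mulVec]

include hQ hn in
theorem scalar_of_mk_eq {b c : GG} (h : (b : GG ⧸ Subgroup.center GG) = c) :
    ∃ ε : F, (ε = 1 ∨ ε = -1) ∧ ∀ x, b.1 ∙ x = ε • (c.1 ∙ x) := by
  rw [eq_comm, QuotientGroup.eq] at h
  obtain ⟨ε, hε, hz⟩ := center_scalar Q hQ hn h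
  refine ⟨ε, hε, fun x => ?_⟩
  have := hz x
  rw [Subgroup.coe_mul, Subgroup.coe_inv, mul_mulVec] at this
  have h2 := congrArg (fun y => c.1 ∙ y) this
  simp only [mulVec_inv_mulVec, Matrix.mulVec_smul] at h2
  exact h2

include hQ hn in
theorem stab_of_mk_eq {b c : GG} (h : (b : GG ⧸ Subgroup.center GG) = c)
    {W : Submodule F (ι → F)} (hc : c.1 ∈ stab Q W) : b.1 ∈ stab Q W := by
  obtain ⟨ε, -, hε⟩ := scalar_of_mk_eq Q hQ hn h
  apply mem_stab_of_le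
  intro x hx
  rw [hε]
  exact W.smul_mem _ (inv_of_le_stab Q (K := stab Q W) le_rfl c.1 hc x hx)

section Wrap

variable {p : ℕ} [Fact p.Prime] [CharP F p]

include hQ in
theorem exists_TS_G {SG KG : Subgroup GG} (hS : IsPGroup p SG) (hS1 : SG ≠ ⊥)
    (hK : ∀ k ∈ KG, ∀ s ∈ SG, k * s * k⁻¹ ∈ SG) :
    ∃ R : Submodule F (ι → F), TS Q R ∧ (∀ k ∈ KG, k.1 ∈ stab Q R) ∧
      (R ≠ ⊥ ∨ ∃ w, Q w ≠ 0 ∧ ∀ k ∈ KG, k.1 ∙ w = w) := by
  obtain ⟨R, h1, h2, -, h3⟩ := exists_TS_of_normalises (p := p) Q hQ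
    (S := SG.map (Cfsg.Omega F ⇑Q).subtype) (K := KG.map (Cfsg.Omega F ⇑Q).subtype)
    (hS.map _)
    (by
      intro h
      apply hS1
      rw [eq_bot_iff]
      intro s hs
      have : (s : OO) ∈ SG.map (Cfsg.Omega F ⇑Q).subtype := ⟨s, hs, rfl⟩
      rw [h, Subgroup.mem_bot] at this
      exact Subgroup.mem_bot.2 (Subtype.ext this))
    (by
      rintro _ ⟨k, hk, rfl⟩ _ ⟨s, hs, rfl⟩
      exact ⟨k * s * k⁻¹, hK k hk s hs, rfl⟩)
  refine ⟨R, h1, fun k hk => h2 ⟨k, hk, rfl⟩, ?_⟩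
  rcases h3 with h | ⟨w, hw, h⟩
  · exact Or.inl h
  · exact Or.inr ⟨w, hw, fun k hk => h _ ⟨k, hk, rfl⟩⟩

include hQ hn in
theorem normal_p_le_G {e : ι → F} (he0 : e ≠ 0) (he : Q e = 0) {BG : Subgroup GG}
    (h1 : ∀ b ∈ BG, b.1 ∈ stab Q (Submodule.span F {e}))
    (h2 : ∀ g : GG, g.1 ∈ stab Q (Submodule.span F {e}) → ∀ b ∈ BG, g * b * g⁻¹ ∈ BG)
    (h3 : ∀ b ∈ BG, ∃ k : ℕ, b ^ p ^ k ∈ Subgroup.center GG) :
    ∀ b ∈ BG, ∃ w, 𝐁 e w = 0 ∧ (b : GG ⧸ Subgroup.center GG) = EG Q hQ hn e w := by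
  intro b hb
  obtain ⟨w, ε, hw, h⟩ := normal_p_le (p := p) Q hQ hn he0 he
    (B := BG.map (Cfsg.Omega F ⇑Q).subtype)
    (by
      rintro _ ⟨b, hb, rfl⟩
      exact ⟨h1 b hb, b.2⟩)
    (by
      rintro g ⟨hg1, hg2⟩ _ ⟨b, hb, rfl⟩
      exact ⟨_, h2 ⟨g, hg2⟩ hg1 b hb, rfl⟩)
    (by
      rintro _ ⟨b, hb, rfl⟩
      obtain ⟨k, hk⟩ := h3 b hb
      obtain ⟨ε, -, hε⟩ := center_scalar Q hQ hn hk
      exact ⟨k, ε, hε⟩)
    b.1 ⟨b, hb, rfl⟩
  exact ⟨w, hw, mk_eq_of_scalar Q (ε := ε) h⟩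

end Wrap

end Cfsg.Agent.Lib.Helper18OPtE
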