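import Mathlib
import Cfsg.Agent.Lib.Helper18OPtE

/-!
# Automorphisms of `PΩ(Q)` permute the singular points, part F (main theorem)
-/

set_option autoImplicit false
set_option linter.unusedSectionVars false

namespace Cfsg.Agent.Lib.Helper18OPtF

open scoped Matrix commutatorElement
open Module
open Cfsg.Agent.Lib.Helper49Orth Cfsg.Agent.Lib.Helper49Hyp Cfsg.Agent.Lib.Helper18Hyp
  Cfsg.Agent.Lib.Helper49Eich Cfsg.Agent.Lib.Helper49Geo Cfsg.Agent.Lib.Helper49EichGen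
  Cfsg.Agent.Lib.Helper49Fam Cfsg.Agent.Lib.Helper49Trans Cfsg.Agent.Lib.Helper49CharTwoA
  Cfsg.Agent.Lib.Helper49Prim Cfsg.Agent.Lib.Helper49Perfect Cfsg.Agent.Lib.Helper18OPtA
  Cfsg.Agent.Lib.Helper18OPtB Cfsg.Agent.Lib.Helper18OPtC Cfsg.Agent.Lib.Helper49Witt2
  Cfsg.Agent.Lib.Helper18OPtD Cfsg.Agent.Lib.Helper49Center Cfsg.Agent.Lib.Helper49Simple
  Cfsg.Agent.Lib.Helper18OPtE Cfsg.Agent.Lib.Helper49Par

variable {F : Type*} [Field F] [Fintype F]
variable {ι : Type} [Fintype ι] [DecidableEq ι] (Q : QuadraticForm F (ι → F))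

local notation "𝐁" => QuadraticMap.polar (DFunLike.coe Q)
local notation:max W "ᗮ" => LinearMap.BilinForm.orthogonal (QuadraticMap.polarBilin Q) W
local notation "OO" => Subtype (fun x => x ∈ Cfsg.isometryGroup F (DFunLike.coe Q))
local notation "GG" => Subtype (fun x => x ∈ Cfsg.Omega F (DFunLike.coe Q))
local notation "PG" => Cfsg.POmega F (DFunLike.coe Q)
local notation:70 g:70 " ∙ " x:71 =>
  Matrix.mulVec (Units.val (Subtype.val g)) x
local notation "π" => (QuotientGroup.mk :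
  Subtype (fun x => x ∈ Cfsg.Omega F (DFunLike.coe Q)) → Cfsg.POmega F (DFunLike.coe Q))

variable (hQ : (QuadraticMap.polarBilin Q).Nondegenerate) (hn : 5 ≤ Fintype.card ι)

/-- the image under `α` of the root group of `e` -/
def Abar (α : PG ≃* PG) (e : ι → F) (he : Q e = 0) : Subgroup PG where
  carrier := {x | ∃ w, 𝐁 e w = 0 ∧ x = α (π (EG Q hQ hn e w))}
  one_mem' := ⟨0, by simp, by
    have : EG Q hQ hn e 0 = 1 := Subtype.ext (E_zero Q e)
    rw [this, QuotientGroup.mk_one, map_one]⟩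
  mul_mem' := by
    rintro _ _ ⟨w, hw, rfl⟩ ⟨w', hw', rfl⟩
    refine ⟨w + w', by rw [QuadraticMap.polar_add_right, hw, hw', add_zero], ?_⟩
    have : EG Q hQ hn e (w + w') = EG Q hQ hn e w * EG Q hQ hn e w' :=
      Subtype.ext (E_mul Q he hw hw').symm
    rw [this, QuotientGroup.mk_mul, map_mul]
  inv_mem' := by
    rintro _ ⟨w, hw, rfl⟩
    refine ⟨-w, by rw [QuadraticMap.polar_neg_right, hw, neg_zero], ?_⟩
    have : EG Q hQ hn e (-w) = (EG Q hQ hn e w)⁻¹ := Subtype.ext (E_inv Q he hw).symm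
    rw [this, QuotientGroup.mk_inv, map_inv]

/-- the image under `α` of the stabiliser of a subspace -/
def Hbar (α : PG ≃* PG) (W : Submodule F (ι → F)) : Subgroup PG where
  carrier := {x | ∃ g : GG, g.1 ∈ stab Q W ∧ x = α (π g)}
  one_mem' := ⟨1, (stab Q W).one_mem, by rw [QuotientGroup.mk_one, map_one]⟩
  mul_mem' := by
    rintro _ _ ⟨g, hg, rfl⟩ ⟨g', hg', rfl⟩
    exact ⟨g * g', (stab Q W).mul_mem hg hg', by rw [QuotientGroup.mk_mul, map_mul]⟩
  inv_mem' := by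
    rintro _ ⟨g, hg, rfl⟩
    exact ⟨g⁻¹, (stab Q W).inv_mem hg, by rw [QuotientGroup.mk_inv, map_inv]⟩

theorem Abar_comm (α : PG ≃* PG) {e : ι → F} (he : Q e = 0) :
    ∀ a ∈ Abar Q hQ hn α e he, ∀ b ∈ Abar Q hQ hn α e he, a * b = b * a := by
  rintro _ ⟨w, hw, rfl⟩ _ ⟨w', hw', rfl⟩
  rw [← map_mul, ← map_mul, ← QuotientGroup.mk_mul, ← QuotientGroup.mk_mul]
  congr 2
  exact Subtype.ext (E_comm Q he hw hw')

theorem Abar_pow {p : ℕ} [CharP F p] (α : PG ≃* PG) {e : ι → F} (he : Q e = 0) :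
    ∀ a ∈ Abar Q hQ hn α e he, a ^ p = 1 := by
  rintro _ ⟨w, hw, rfl⟩
  rw [← map_pow, ← QuotientGroup.mk_pow]
  have : (EG Q hQ hn e w) ^ p = 1 := by
    apply Subtype.ext
    rw [Subgroup.coe_pow, coe_EG, E_pow Q he hw]
    have : p • w = 0 := by
      funext i
      simp [CharP.cast_eq_zero F p]
    rw [this, E_zero]
    rfl
  rw [this, QuotientGroup.mk_one, map_one]

/-- conjugating an Eichler transformation by an element of the point stabiliser -/
theorem conj_EG {e : ι → F} (he0 : e ≠ 0) (he : Q e = 0) {g : GG}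
    (hg : g.1 ∈ stab Q (Submodule.span F {e})) {w : ι → F} (hw : 𝐁 e w = 0) :
    ∃ w', 𝐁 e w' = 0 ∧ g * EG Q hQ hn e w * g⁻¹ = EG Q hQ hn e w' := by
  obtain ⟨l, hl⟩ := exists_eigen Q hg
  have hl0 := eigen_ne_zero Q g.1 he0 hl
  refine ⟨l • (g.1 ∙ w), ?_, Subtype.ext (conj_E_of_eigen Q g.1 he hw hl hl0)⟩
  have := polar_iso Q g.1 e w
  rw [hl, QuadraticMap.polar_smul_left, hw, smul_eq_mul] at this
  rw [QuadraticMap.polar_smul_right, (mul_eq_zero.1 this).resolve_left hl0, smul_zero]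

theorem Hbar_normalises (α : PG ≃* PG) {e : ι → F} (he0 : e ≠ 0) (he : Q e = 0) :
    ∀ h ∈ Hbar Q α (Submodule.span F {e}), ∀ a ∈ Abar Q hQ hn α e he,
      h * a * h⁻¹ ∈ Abar Q hQ hn α e he := by
  rintro _ ⟨g, hg, rfl⟩ _ ⟨w, hw, rfl⟩
  obtain ⟨w', hw', h⟩ := conj_EG Q hQ hn he0 he hg hw
  refine ⟨w', hw', ?_⟩
  rw [← h, QuotientGroup.mk_mul, QuotientGroup.mk_mul, QuotientGroup.mk_inv, map_mul, map_mul,
    map_inv]

/-- `π (E(e,w)) = 1` only if `w` is a multiple of `e` -/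
theorem mem_span_of_mk_EG_eq_one {e w : ι → F} (he0 : e ≠ 0) (he : Q e = 0) (hw : 𝐁 e w = 0)
    (h : π (EG Q hQ hn e w) = 1) : w ∈ Submodule.span F {e} := by
  rw [QuotientGroup.eq_one_iff] at h
  obtain ⟨ε, -, hε⟩ := center_scalar Q hQ hn h
  have h1 := hε e
  rw [coe_EG, E_fix_self Q he hw] at h1
  have hε1 : ε = 1 := by
    by_contra hne1
    apply he0
    have : (1 - ε) • e = 0 := by rw [sub_smul, one_smul, ← h1, sub_self]
    exact (smul_eq_zero.1 this).resolve_left (sub_ne_zero.2 (Ne.symm hne1))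
  apply mem_span_of_E_eq_one Q hQ he0 he hw
  apply ext_mulVec
  intro x
  have := hε x
  rw [coe_EG] at this
  rw [this, hε1, one_smul, one_mulVec']

section Main

variable {p : ℕ} [Fact p.Prime] [CharP F p]

omit [Fintype F] in
theorem conj_mem_stab {g s : OO} {U₁ U : Submodule F (ι → F)} (hg : img Q g U₁ = U)
    (hs : s ∈ stab Q U₁) : g * s * g⁻¹ ∈ stab Q U := by
  rw [mem_stab, ← hg, img_mul, img_mul, ← img_mul Q g⁻¹ g, inv_mul_cancel, img_one,
    (mem_stab Q).1 hs]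

include p in
/-- the image of a point stabiliser contains a full root group -/
theorem exists_root_in_Hbar (α : PG ≃* PG) {e : ι → F} (he0 : e ≠ 0) (he : Q e = 0) :
    ∃ e₀ : ι → F, e₀ ≠ 0 ∧ Q e₀ = 0 ∧
      ∀ w, 𝐁 e₀ w = 0 → π (EG Q hQ hn e₀ w) ∈ Hbar Q α (Submodule.span F {e}) := by
  have hZ : ∀ z ∈ Subgroup.center GG, z ^ p = z := fun z hz => center_pow (p := p) Q hQ hn hz
  set Sb := Abar Q hQ hn α.symm e he with hSb
  have hc := Abar_comm Q hQ hn α.symm he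
  have hp := Abar_pow (p := p) Q hQ hn α.symm he
  have hS := hat_isPGroup hZ Sb hc hp
  obtain ⟨e₁, he₁0, he₁, hfix⟩ := exists_fixed_pt (p := p) Q hQ (by omega)
    (S := (hat hZ Sb hc hp).map (Cfsg.Omega F ⇑Q).subtype) (hS.map _)
  have := pretransitive Q hQ hn
  obtain ⟨g, hg⟩ := MulAction.exists_smul_eq GG (mkPt Q he₁0 he₁) (mkPt Q he0 he)
  have hg' : img Q g.1 (Submodule.span F {e₁}) = Submodule.span F {e} := congrArg Subtype.val hg
  obtain ⟨g', hg''⟩ := QuotientGroup.mk_surjective (α (π g))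
  refine ⟨g'.1 ∙ e, ?_, by rw [iso_apply (Q := ⇑Q)]; exact he, fun w hw => ?_⟩
  · intro h
    apply he0
    have := inv_mulVec_mulVec Q g'.1 e
    rw [h, Matrix.mulVec_zero] at this
    exact this.symm
  · set w₁ := g'.1⁻¹ ∙ w with hw₁
    have h1 : g'.1 ∙ w₁ = w := mulVec_inv_mulVec Q g'.1 w
    have h2 : 𝐁 e w₁ = 0 := by
      rw [← polar_iso Q g'.1, h1]; exact hw
    have h3 : EG Q hQ hn (g'.1 ∙ e) w = g' * EG Q hQ hn e w₁ * g'⁻¹ := by
      apply Subtype.ext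
      change E Q _ _ = g'.1 * E Q e w₁ * g'.1⁻¹
      rw [E_conj Q g'.1 he h2, h1]
    obtain ⟨s, hs, hs'⟩ := exists_mem_hat hZ Sb hc hp (x := α.symm (π (EG Q hQ hn e w₁)))
      ⟨w₁, h2, rfl⟩
    refine ⟨g * s * g⁻¹, ?_, ?_⟩
    · apply conj_mem_stab Q hg'
      apply mem_stab_of_le
      intro x hx
      obtain ⟨t, rfl⟩ := Submodule.mem_span_singleton.1 hx
      rw [Matrix.mulVec_smul]
      exact Submodule.smul_mem _ _ (hfix s.1 ⟨s, hs, rfl⟩)
    · rw [h3, QuotientGroup.mk_mul, QuotientGroup.mk_mul, QuotientGroup.mk_inv,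
        QuotientGroup.mk_mul, QuotientGroup.mk_mul, QuotientGroup.mk_inv, map_mul, map_mul,
        map_inv, hg'']
      have : π s = α.symm (π (EG Q hQ hn e w₁)) := hs'
      rw [this, MulEquiv.apply_symm_apply]

include hQ hn p in
/-- the image of a point stabiliser stabilises a nonzero totally singular subspace -/
theorem exists_TS_Hbar (α : PG ≃* PG) {e : ι → F} (he0 : e ≠ 0) (he : Q e = 0) :
    ∃ R : Submodule F (ι → F), TS Q R ∧ R ≠ ⊥ ∧
      ∀ h : GG, π h ∈ Hbar Q α (Submodule.span F {e}) → h.1 ∈ stab Q R := by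
  have hZ : ∀ z ∈ Subgroup.center GG, z ^ p = z := fun z hz => center_pow (p := p) Q hQ hn hz
  set Ab := Abar Q hQ hn α e he with hAb
  have hc := Abar_comm Q hQ hn α he
  have hp := Abar_pow (p := p) Q hQ hn α he
  have hS := hat_isPGroup hZ Ab hc hp
  have hS1 : hat hZ Ab hc hp ≠ ⊥ := by
    intro hbot
    -- a vector `w ⊥ e` outside `span e`
    obtain ⟨w, hwS, hw⟩ := exists_nonsingular_orth Q hQ (S := Submodule.span F {e})
      (by rw [finrank_span_singleton he0]; omega)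
    rw [mem_orth_span_singleton] at hwS
    obtain ⟨a, ha, ha'⟩ := exists_mem_hat hZ Ab hc hp (x := α (π (EG Q hQ hn e w))) ⟨w, hwS, rfl⟩
    rw [hbot, Subgroup.mem_bot] at ha
    rw [ha, QuotientGroup.mk_one] at ha'
    have h1 : π (EG Q hQ hn e w) = 1 := by
      apply α.injective
      rw [← ha', map_one]
    obtain ⟨t, rfl⟩ := Submodule.mem_span_singleton.1
      (mem_span_of_mk_EG_eq_one Q hQ hn he0 he hwS h1)
    apply hw
    rw [QuadraticMap.map_smul, he, smul_zero]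
  obtain ⟨R, hR, hst, hor⟩ := exists_TS_G (p := p) Q hQ (SG := hat hZ Ab hc hp)
    (KG := (Hbar Q α (Submodule.span F {e})).comap (QuotientGroup.mk' _)) hS hS1
    (by
      rintro k hk s ⟨hs1, hs2⟩
      refine ⟨?_, by rw [conj_pow, hs2]; simp⟩
      have := Hbar_normalises Q hQ hn α he0 he _ hk _ hs1
      simpa using this)
  refine ⟨R, hR, ?_, fun h hh => hst h hh⟩
  rcases hor with h | ⟨w, hw, hfix⟩
  · exact h
  · exfalso
    obtain ⟨e₀, he₀0, he₀, hroot⟩ := exists_root_in_Hbar (p := p) Q hQ hn α he0 he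
    have h1 : w ∈ fixS Q (RS Q e₀ he₀) := by
      rintro _ ⟨v, hv, rfl⟩
      exact hfix (EG Q hQ hn e₀ v) (hroot v hv)
    rw [fixS_RS Q hQ (by omega) he₀0 he₀] at h1
    obtain ⟨t, rfl⟩ := Submodule.mem_span_singleton.1 h1
    apply hw
    rw [QuadraticMap.map_smul, he₀, smul_zero]

/-- the image under `α` of (the part in `Ω` of) a subgroup of the isometry group -/
def Im (α : PG ≃* PG) (K : Subgroup OO) : Subgroup PG where
  carrier := {x | ∃ g : GG, g.1 ∈ K ∧ x = α (π g)}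
  one_mem' := ⟨1, K.one_mem, by rw [QuotientGroup.mk_one, map_one]⟩
  mul_mem' := by
    rintro _ _ ⟨g, hg, rfl⟩ ⟨g', hg', rfl⟩
    exact ⟨g * g', K.mul_mem hg hg', by rw [QuotientGroup.mk_mul, map_mul]⟩
  inv_mem' := by
    rintro _ ⟨g, hg, rfl⟩
    exact ⟨g⁻¹, K.inv_mem hg, by rw [QuotientGroup.mk_inv, map_inv]⟩

include hQ hn in
/-- by maximality of the point stabiliser, its image is the full stabiliser of `R` -/
theorem stab_le_Hbar (α : PG ≃* PG) {e : ι → F} (he0 : e ≠ 0) (he : Q e = 0)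
    {R : Submodule F (ι → F)} (hR : TS Q R) (hR0 : R ≠ ⊥)
    (hst : ∀ h : GG, π h ∈ Hbar Q α (Submodule.span F {e}) → h.1 ∈ stab Q R) :
    ∀ y : GG, y.1 ∈ stab Q R → π y ∈ Hbar Q α (Submodule.span F {e}) := by
  set MG : Subgroup GG := (Hbar Q α.symm R).comap (QuotientGroup.mk' _) with hMG
  have hmem : ∀ m : GG, m ∈ MG ↔ ∃ y : GG, y.1 ∈ stab Q R ∧ π m = α.symm (π y) := fun m => Iff.rfl
  set M : Subgroup OO := MG.map (Cfsg.Omega F ⇑Q).subtype with hM
  have hM1 : stab Q (Submodule.span F {e}) ⊓ Cfsg.Omega F ⇑Q ≤ M := by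
    rintro x ⟨hx1, hx2⟩
    refine ⟨⟨x, hx2⟩, ?_, rfl⟩
    obtain ⟨h, hh⟩ := QuotientGroup.mk_surjective (α (π ⟨x, hx2⟩))
    rw [SetLike.mem_coe, hmem]
    refine ⟨h, hst h ⟨⟨x, hx2⟩, hx1, hh⟩, ?_⟩
    have : π h = α (π ⟨x, hx2⟩) := hh
    rw [this, MulEquiv.symm_apply_apply]
  by_cases hM2 : M ≤ stab Q (Submodule.span F {e})
  · intro y hy
    obtain ⟨m, hm⟩ := QuotientGroup.mk_surjective (α.symm (π y))
    have h1 : m ∈ MG := (hmem m).2 ⟨y, hy, hm⟩
    refine ⟨m, hM2 ⟨m, h1, rfl⟩, ?_⟩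
    have : π m = α.symm (π y) := hm
    rw [this, MulEquiv.apply_symm_apply]
  · exfalso
    have hle := parabolic_maximal Q hQ hn (W := Submodule.span F {e}) (ts_span he)
      (by
        intro U _ hU
        rw [finrank_span_singleton he0] at hU
        omega) hM1 hM2
    apply not_Omega_le_stab Q hQ hn hR hR0
    intro x hx
    obtain ⟨g₂, hg₂⟩ := QuotientGroup.mk_surjective (α.symm (π ⟨x, hx⟩))
    obtain ⟨m, hm, hm'⟩ := hle g₂.2
    have hmg : m = g₂ := Subtype.ext hm'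
    rw [hmg, SetLike.mem_coe, hmem] at hm
    obtain ⟨y, hy, hy'⟩ := hm
    have h1 : π ⟨x, hx⟩ = π y := by
      apply α.symm.injective
      rw [← hy']
      exact hg₂.symm
    exact stab_of_mk_eq Q hQ hn h1 hy

omit [Fintype F] in
theorem UR_le_stab {R : Submodule F (ι → F)} (hR : TS Q R) : UR Q R hR ≤ stab Q R := by
  intro g hg
  apply mem_stab_of_le
  intro x hx
  rw [hg.1 x hx]
  exact hx

include p in
/-- the inverse image of the unipotent radical of `stab R` lies in the root group of `e` -/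
theorem symm_UR (α : PG ≃* PG) {e : ι → F} (he0 : e ≠ 0) (he : Q e = 0)
    {R : Submodule F (ι → F)} (hR : TS Q R)
    (hst : ∀ h : GG, π h ∈ Hbar Q α (Submodule.span F {e}) → h.1 ∈ stab Q R)
    (hle : ∀ y : GG, y.1 ∈ stab Q R → π y ∈ Hbar Q α (Submodule.span F {e})) :
    ∀ y : GG, y.1 ∈ UR Q R hR → ∃ w, 𝐁 e w = 0 ∧ α.symm (π y) = π (EG Q hQ hn e w) := by
  have hne : Nonempty ι := by
    apply Fintype.card_pos_iff.1
    omega
  set BG : Subgroup GG := (Im Q α.symm (UR Q R hR)).comap (QuotientGroup.mk' _) with hBG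
  have hmem : ∀ b : GG, b ∈ BG ↔ ∃ y : GG, y.1 ∈ UR Q R hR ∧ π b = α.symm (π y) :=
    fun b => Iff.rfl
  have key := normal_p_le_G (p := p) Q hQ hn he0 he (BG := BG)
    (by
      intro b hb
      obtain ⟨y, hy, hby⟩ := (hmem b).1 hb
      obtain ⟨g, hg, hyg⟩ := hle y (UR_le_stab Q hR hy)
      have h1 : π b = π g := by rw [hby, hyg, MulEquiv.symm_apply_apply]
      exact stab_of_mk_eq Q hQ hn h1 hg)
    (by
      intro g hg b hb
      obtain ⟨y, hy, hby⟩ := (hmem b).1 hb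
      obtain ⟨h, hh⟩ := QuotientGroup.mk_surjective (α (π g))
      have hh' : π h = α (π g) := hh
      have h1 : h.1 ∈ stab Q R := hst h ⟨g, hg, hh⟩
      rw [hmem]
      refine ⟨h * y * h⁻¹, UR_conj Q hR h1 hy, ?_⟩
      rw [QuotientGroup.mk_mul, QuotientGroup.mk_mul, QuotientGroup.mk_inv, QuotientGroup.mk_mul,
        QuotientGroup.mk_mul, QuotientGroup.mk_inv, map_mul, map_mul, map_inv, hh',
        MulEquiv.symm_apply_apply, hby])
    (by
      intro b hb
      obtain ⟨y, hy, hby⟩ := (hmem b).1 hb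
      obtain ⟨k, hk⟩ := UR_isPGroup (p := p) Q hR ⟨y.1, hy⟩
      refine ⟨k, ?_⟩
      have h1 : y ^ p ^ k = 1 := by
        apply Subtype.ext
        have := congrArg Subtype.val hk
        simpa using this
      rw [← QuotientGroup.eq_one_iff, QuotientGroup.mk_pow]
      have : π b = α.symm (π y) := hby
      rw [this, ← map_pow, ← QuotientGroup.mk_pow, h1, QuotientGroup.mk_one, map_one])
  intro y hy
  obtain ⟨b, hb⟩ := QuotientGroup.mk_surjective (α.symm (π y))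
  obtain ⟨w, hw, hbw⟩ := key b ((hmem b).2 ⟨y, hy, hb⟩)
  refine ⟨w, hw, ?_⟩
  rw [← hb]
  exact hbw

include hQ hn p in
/-- the totally singular subspace is a point -/
theorem finrank_eq_one (hside : ∀ U : Submodule F (ι → F), TS Q U →
      2 * finrank F U = Fintype.card ι → 5 ≤ finrank F U)
    (α : PG ≃* PG) {e : ι → F} (he0 : e ≠ 0) (he : Q e = 0)
    {R : Submodule F (ι → F)} (hR : TS Q R) (hR0 : R ≠ ⊥)
    (hst : ∀ h : GG, π h ∈ Hbar Q α (Submodule.span F {e}) → h.1 ∈ stab Q R)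
    (hle : ∀ y : GG, y.1 ∈ stab Q R → π y ∈ Hbar Q α (Submodule.span F {e})) :
    finrank F R = 1 := by
  have key := symm_UR (p := p) Q hQ hn α he0 he hR hst hle
  by_contra h1
  have h0 : finrank F R ≠ 0 := by
    intro h
    exact hR0 (Submodule.finrank_eq_zero.1 h)
  have h2 : 2 ≤ finrank F R := by omega
  by_cases hne : R = Rᗮ
  · have h3 := finrank_orth_add Q hQ R
    rw [← hne] at h3
    have h5 := hside R hR (by omega)
    have hlow := card_fixer_ge Q hQ hn (finrank F R) R hR rfl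
    have hup := card_RS_le Q hQ he0 he
    have hfin := finite_OO Q
    obtain ⟨r, hrR, hr0⟩ := Submodule.exists_mem_ne_zero_of_ne_bot hR0
    have hUR : ∀ y : ↥(fixer Q Rᗮ ⊓ Cfsg.Omega F ⇑Q), (y : OO) ∈ UR Q R hR := by
      rintro ⟨y, hy1, -⟩
      refine ⟨fun x hx => hy1 x (hR.le_orth hx), fun x hx => ?_⟩
      rw [hy1 x hx, sub_self]
      exact R.zero_mem
    have hch : ∀ y : ↥(fixer Q Rᗮ ⊓ Cfsg.Omega F ⇑Q), ∃ w, 𝐁 e w = 0 ∧
        α.symm (π ⟨y.1, y.2.2⟩) = π (EG Q hQ hn e w) := fun y => key ⟨y.1, y.2.2⟩ (hUR y)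
    choose wf hwf1 hwf2 using hch
    have hinj : Nat.card ↥(fixer Q Rᗮ ⊓ Cfsg.Omega F ⇑Q) ≤ Nat.card ↥(RS Q e he) := by
      apply Nat.card_le_card_of_injective
        (fun y => (⟨E Q e (wf y), wf y, hwf1 y, rfl⟩ : ↥(RS Q e he)))
      intro y y' hyy
      have e1 : E Q e (wf y) = E Q e (wf y') := congrArg Subtype.val hyy
      have e2 : EG Q hQ hn e (wf y) = EG Q hQ hn e (wf y') := Subtype.ext e1
      have e3 : π ⟨y.1, y.2.2⟩ = π ⟨y'.1, y'.2.2⟩ := by
        apply α.symm.injective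
        rw [hwf2, hwf2, e2]
      obtain ⟨ε, -, hε⟩ := scalar_of_mk_eq Q hQ hn e3
      have e4 := hε r
      change (y : OO) ∙ r = ε • ((y' : OO) ∙ r) at e4
      rw [(hUR y).1 r hrR, (hUR y').1 r hrR] at e4
      have hε1 : ε = 1 := by
        by_contra hne1
        apply hr0
        have : (1 - ε) • r = 0 := by rw [sub_smul, one_smul, ← e4, sub_self]
        exact (smul_eq_zero.1 this).resolve_left (sub_ne_zero.2 (Ne.symm hne1))
      apply Subtype.ext
      apply ext_mulVec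
      intro x
      have := hε x
      rw [hε1, one_smul] at this
      exact this
    have hpow := le_trans hlow (le_trans hinj hup)
    rw [Nat.pow_le_pow_iff_right Fintype.one_lt_card] at hpow
    have h6 : ∀ ν : ℕ, 5 ≤ ν → 2 * ν - 1 ≤ ν * (ν - 1) / 2 := by
      intro ν h5
      rw [Nat.le_div_iff_mul_le (by norm_num)]
      obtain ⟨k, rfl⟩ : ∃ k, ν = k + 5 := ⟨ν - 5, by omega⟩
      have : (k + 5) * (k + 5 - 1) = k * k + 9 * k + 20 := by
        rw [show k + 5 - 1 = k + 4 by omega]; ring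
      rw [this]
      have : (2 * (k + 5) - 1) * 2 = 4 * k + 18 := by omega
      rw [this]
      nlinarith
    have h7 := h6 _ h5
    omega
  · obtain ⟨r₁, hr₁, r₂, hr₂, w₁, hw₁, w₂, hw₂, hnc⟩ := exists_not_commute Q hQ hR h2 hne
    obtain ⟨v₁, hv₁, hy₁⟩ := key (EG Q hQ hn r₁ w₁) (E_mem_UR Q hR hr₁ hw₁)
    obtain ⟨v₂, hv₂, hy₂⟩ := key (EG Q hQ hn r₂ w₂) (E_mem_UR Q hR hr₂ hw₂)
    have h3 : π ⁅EG Q hQ hn r₁ w₁, EG Q hQ hn r₂ w₂⁆ = 1 := by
      apply α.symm.injective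
      rw [commutatorElement_def, QuotientGroup.mk_mul, QuotientGroup.mk_mul, QuotientGroup.mk_mul,
        QuotientGroup.mk_inv, QuotientGroup.mk_inv, map_mul, map_mul, map_mul, map_inv, map_inv,
        hy₁, hy₂, map_one, ← QuotientGroup.mk_inv, ← QuotientGroup.mk_inv, ← QuotientGroup.mk_mul,
        ← QuotientGroup.mk_mul, ← QuotientGroup.mk_mul]
      have : EG Q hQ hn e v₁ * EG Q hQ hn e v₂ * (EG Q hQ hn e v₁)⁻¹ * (EG Q hQ hn e v₂)⁻¹ = 1 := by
        have hc : EG Q hQ hn e v₁ * EG Q hQ hn e v₂ = EG Q hQ hn e v₂ * EG Q hQ hn e v₁ :=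
          Subtype.ext (E_comm Q he hv₁ hv₂)
        rw [hc]
        group
      rw [this, QuotientGroup.mk_one]
    rw [QuotientGroup.eq_one_iff] at h3
    obtain ⟨ε, -, hε⟩ := center_scalar Q hQ hn h3
    exact hnc ε hε

include p in
/-- **Automorphisms of `PΩ(Q)` permute the root groups of singular points.** -/
theorem exists_point (hside : ∀ U : Submodule F (ι → F), TS Q U →
      2 * finrank F U = Fintype.card ι → 5 ≤ finrank F U)
    (α : PG ≃* PG) {e : ι → F} (he0 : e ≠ 0) (he : Q e = 0) :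
    ∃ e' : ι → F, e' ≠ 0 ∧ Q e' = 0 ∧
      (∀ w, 𝐁 e w = 0 → ∃ w', 𝐁 e' w' = 0 ∧ α (π (EG Q hQ hn e w)) = π (EG Q hQ hn e' w')) ∧
      (∀ w', 𝐁 e' w' = 0 → ∃ w, 𝐁 e w = 0 ∧ α (π (EG Q hQ hn e w)) = π (EG Q hQ hn e' w')) := by
  obtain ⟨R, hR, hR0, hst⟩ := exists_TS_Hbar (p := p) Q hQ hn α he0 he
  have hle := stab_le_Hbar Q hQ hn α he0 he hR hR0 hst
  have h1 := finrank_eq_one (p := p) Q hQ hn hside α he0 he hR hR0 hst hle
  obtain ⟨e', he'0, he', hP⟩ := exists_rep Q ⟨R, h1, hR⟩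
  have hRe : R = Submodule.span F {e'} := congrArg Subtype.val hP
  refine ⟨e', he'0, he', ?_, ?_⟩
  · have key := normal_p_le_G (p := p) Q hQ hn he'0 he'
      (BG := (Abar Q hQ hn α e he).comap (QuotientGroup.mk' _))
      (by
        rintro b ⟨w, hw, hb⟩
        rw [← hRe]
        apply hst b
        refine ⟨EG Q hQ hn e w, ?_, hb⟩
        apply mem_stab_of_le
        intro x hx
        obtain ⟨t, rfl⟩ := Submodule.mem_span_singleton.1 hx
        rw [Matrix.mulVec_smul, coe_EG, E_fix_self Q he hw]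
        exact hx)
      (by
        intro g hg b hb
        rw [← hRe] at hg
        have := Hbar_normalises Q hQ hn α he0 he _ (hle g hg) _ hb
        simpa using this)
      (by
        intro b hb
        refine ⟨1, ?_⟩
        rw [pow_one, ← QuotientGroup.eq_one_iff, QuotientGroup.mk_pow]
        exact Abar_pow (p := p) Q hQ hn α he _ hb)
    intro w hw
    obtain ⟨b, hb⟩ := QuotientGroup.mk_surjective (α (π (EG Q hQ hn e w)))
    obtain ⟨w', hw', hbw⟩ := key b ⟨w, hw, hb⟩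
    refine ⟨w', hw', ?_⟩
    rw [← hb]
    exact hbw
  · intro w' hw'
    have h2 : (EG Q hQ hn e' w').1 ∈ UR Q R hR := by
      apply E_mem_UR Q hR
      · rw [hRe]; exact Submodule.mem_span_singleton_self e'
      · rw [hRe, mem_orth_span_singleton]; exact hw'
    obtain ⟨w, hw, h3⟩ := symm_UR (p := p) Q hQ hn α he0 he hR hst hle _ h2
    exact ⟨w, hw, by rw [← h3, MulEquiv.apply_symm_apply]⟩

end Main

omit [Fintype F] in
theorem mem_rootSub_mkPt {e : ι → F} (he0 : e ≠ 0) (he : Q e = 0) {g : GG} :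
    g ∈ rootSub Q (mkPt Q he0 he) ↔ ∃ w, 𝐁 e w = 0 ∧ g.1 = E Q e w := by
  rw [mem_rootSub]
  constructor
  · rintro ⟨e', he', w, hw, hg⟩
    obtain ⟨t, rfl⟩ := Submodule.mem_span_singleton.1 he'
    by_cases ht : t = 0
    · subst ht
      rw [zero_smul, E_zero_left] at hg
      exact ⟨0, by simp, by rw [hg, E_zero]⟩
    · rw [QuadraticMap.polar_smul_left, smul_eq_mul] at hw
      have hw' := (mul_eq_zero.1 hw).resolve_left ht
      exact ⟨t • w, by rw [QuadraticMap.polar_smul_right, hw', smul_zero],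
        by rw [hg, E_smul Q he hw']⟩
  · rintro ⟨w, hw, hg⟩
    exact ⟨e, Submodule.mem_span_singleton_self e, w, hw, hg⟩

/-- The statement used by the determination of `Aut(PΩ(Q))`. -/
def PointsHyp : Prop := ∀ (α : MulAut (Cfsg.POmega F ⇑Q)) (P : SPt Q), ∃ P' : SPt Q,
  ((rootSub Q P).map (QuotientGroup.mk' (Subgroup.center ↥(Cfsg.Omega F ⇑Q)))).map α.toMonoidHom
    = (rootSub Q P').map (QuotientGroup.mk' (Subgroup.center ↥(Cfsg.Omega F ⇑Q)))

include hQ hn in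
theorem pointsHyp (hside : ∀ U : Submodule F (ι → F), TS Q U →
      2 * finrank F U = Fintype.card ι → 5 ≤ finrank F U) : PointsHyp Q := by
  intro α P
  have hp : Fact (ringChar F).Prime := ⟨CharP.char_is_prime F (ringChar F)⟩
  obtain ⟨e, he0, he, rfl⟩ := exists_rep Q P
  obtain ⟨e', he'0, he', h1, h2⟩ := exists_point (p := ringChar F) Q hQ hn hside α he0 he
  refine ⟨mkPt Q he'0 he', ?_⟩
  ext x
  constructor
  · rintro ⟨_, ⟨g, hg, rfl⟩, rfl⟩
    obtain ⟨w, hw, hgw⟩ := (mem_rootSub_mkPt Q he0 he).1 hg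
    obtain ⟨w', hw', h⟩ := h1 w hw
    have hg' : g = EG Q hQ hn e w := Subtype.ext hgw
    refine ⟨EG Q hQ hn e' w', (mem_rootSub_mkPt Q he'0 he').2 ⟨w', hw', rfl⟩, ?_⟩
    rw [hg']
    exact h.symm
  · rintro ⟨g, hg, rfl⟩
    obtain ⟨w', hw', hgw⟩ := (mem_rootSub_mkPt Q he'0 he').1 hg
    obtain ⟨w, hw, h⟩ := h2 w' hw'
    have hg' : g = EG Q hQ hn e' w' := Subtype.ext hgw
    refine ⟨π (EG Q hQ hn e w), ⟨EG Q hQ hn e w, (mem_rootSub_mkPt Q he0 he).2 ⟨w, hw, rfl⟩, rfl⟩, ?_⟩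
    rw [hg']
    exact h

end Cfsg.Agent.Lib.Helper18OPtF
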