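import Mathlib
import Cfsg.Agent.Lib.Helper19FR
import Cfsg.Agent.Lib.Helper12Card

set_option autoImplicit false
set_option linter.unusedSectionVars false

namespace Cfsg.Agent.Lib.Helper19FR2

open Cfsg Cfsg.Agent.Lib.Helper19Ind Cfsg.Agent.Lib.Helper4Char Cfsg.Agent.Lib.Helper4Char2
  Cfsg.Agent.Lib.Helper4Char4 Cfsg.Agent.Lib.Helper19Cliff Cfsg.Agent.Lib.Helper19Util
  Cfsg.Agent.Lib.Helper19Ratio Cfsg.Agent.Lib.Helper19FR
open scoped ComplexConjugate Pointwise

section GrpLemma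

variable {N : Type*} [Group N] [Finite N]

theorem index_eq_relIndex (I S : Subgroup N) (hprod : ∀ n : N, ∃ s ∈ S, ∃ i ∈ I, n = s * i) :
    I.index = I.relIndex S := by
  have h1 : ((S : Set N) * (I : Set N) : Set N) = Set.univ := by
    rw [Set.eq_univ_iff_forall]
    intro n
    obtain ⟨s, hs, i, hi, rfl⟩ := hprod n
    exact Set.mul_mem_mul hs hi
  have h2 := Helper12Card.card_mul_set S I
  rw [h1, Nat.card_univ, ← I.card_mul_index] at h2
  exact Nat.eq_of_mul_eq_mul_left Nat.card_pos h2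

theorem le_of_index (p : ℕ) [hp : Fact p.Prime] (I S T A : Subgroup N) [A.Normal]
    (hTA : T ≤ A) (hTI : T ≤ I) (hIS : I ⊓ S ≤ T) (hTS : T ≤ S)
    (hprod : ∀ n : N, ∃ s ∈ S, ∃ i ∈ I, n = s * i)
    (k : ℕ) (hk : T.relIndex S = p ^ k) (hA : ¬ p ∣ T.relIndex A) :
    I.index = p ^ k ∧ A ≤ I := by
  have h1 : I.index = p ^ k := by
    rw [index_eq_relIndex I S hprod, ← Subgroup.inf_relIndex_right,
      le_antisymm hIS (le_inf hTI hTS), hk]
  refine ⟨h1, ?_⟩
  rw [← Subgroup.relIndex_eq_one]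
  have h2 : I.relIndex A ∣ p ^ k := by
    rw [Helper12Card.relIndex_eq_relIndex_sup I A, ← h1]
    exact ⟨_, (Subgroup.relIndex_mul_index (le_sup_left : I ≤ I ⊔ A)).symm⟩
  have h3 : I.relIndex A ∣ T.relIndex A := Subgroup.relIndex_dvd_of_le_left A hTI
  obtain ⟨j, -, hj⟩ := (Nat.dvd_prime_pow hp.out).1 h2
  rcases Nat.eq_zero_or_pos j with h0 | h0
  · rw [hj, h0, pow_zero]
  · exfalso
    apply hA
    refine dvd_trans ?_ h3
    rw [hj]
    exact dvd_pow_self p h0.ne'

end GrpLemma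

section Setup

variable {H : Type*} [Group H] [Finite H]

theorem setup (p : ℕ) [hp : Fact p.Prime] (Z K : Subgroup H) [hZ : Z.Normal] [hK : K.Normal] (hZK : Z ≤ K) :
    ∃ S : Subgroup H, Z ≤ S ∧ Subgroup.normalizer ((S ⊓ K : Subgroup H) : Set H) ⊔ K = ⊤ ∧
      (∃ n, Z.relIndex S = p ^ n) ∧ ¬ p ∣ S.index ∧ ¬ p ∣ (S ⊓ K).relIndex K := by
  classical
  obtain ⟨PK⟩ : Nonempty (Sylow p K) := inferInstance
  obtain ⟨T₀, hT₀⟩ : ∃ T₀, T₀ = (PK : Subgroup K).map K.subtype := ⟨_, rfl⟩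
  have hpT : IsPGroup p T₀ := by rw [hT₀]; exact PK.2.map _
  obtain ⟨S₀, hS₀⟩ := hpT.exists_le_sylow
  have hT₀K : T₀ ≤ K := by rw [hT₀]; exact Subgroup.map_subtype_le _
  have hinf : (S₀ : Subgroup H) ⊓ K = T₀ := by
    apply le_antisymm _ (le_inf hS₀ hT₀K)
    have h1 : IsPGroup p (((S₀ : Subgroup H) ⊓ K).subgroupOf K) := by
      apply IsPGroup.of_injective (S₀.2) ((Subgroup.inclusion (inf_le_left : (S₀ : Subgroup H) ⊓ K ≤ S₀)).comp
        (Subgroup.subgroupOfEquivOfLe (inf_le_right : (S₀ : Subgroup H) ⊓ K ≤ K)).toMonoidHom)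
      intro x y hxy
      apply (Subgroup.subgroupOfEquivOfLe (inf_le_right : (S₀ : Subgroup H) ⊓ K ≤ K)).injective
      exact Subgroup.inclusion_injective (inf_le_left : (S₀ : Subgroup H) ⊓ K ≤ S₀) hxy
    have h2 : (PK : Subgroup K) ≤ ((S₀ : Subgroup H) ⊓ K).subgroupOf K := by
      intro x hx
      rw [Subgroup.mem_subgroupOf]
      refine ⟨hS₀ ?_, x.2⟩
      rw [hT₀]
      exact ⟨x, hx, rfl⟩
    have h3 := PK.is_maximal' h1 h2
    intro x hx
    rw [hT₀]
    refine ⟨⟨x, hx.2⟩, ?_, rfl⟩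
    rw [SetLike.mem_coe, ← h3, Subgroup.mem_subgroupOf]
    exact hx
  have hSK : ((S₀ : Subgroup H) ⊔ Z) ⊓ K = T₀ ⊔ Z := by
    apply le_antisymm
    · intro x hx
      obtain ⟨hx1, hx2⟩ := Subgroup.mem_inf.1 hx
      rw [Subgroup.mem_sup_of_normal_right] at hx1
      obtain ⟨s, hs, z, hz, rfl⟩ := hx1
      have hsK : s ∈ K := by
        have := K.mul_mem hx2 (K.inv_mem (hZK hz))
        simpa using this
      exact Subgroup.mul_mem_sup (hinf ▸ ⟨hs, hsK⟩) hz
    · exact le_inf (sup_le_sup_right hS₀ Z) (sup_le hT₀K hZK)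
  refine ⟨(S₀ : Subgroup H) ⊔ Z, le_sup_right, ?_, ?_, ?_, ?_⟩
  · rw [hSK, eq_top_iff, ← Sylow.normalizer_sup_eq_top PK, ← hT₀]
    apply sup_le_sup_right
    have key : ∀ n ∈ Subgroup.normalizer (T₀ : Set H), ∀ x ∈ T₀ ⊔ Z, n * x * n⁻¹ ∈ T₀ ⊔ Z := by
      intro n hn x hx
      rw [Subgroup.mem_sup_of_normal_right] at hx
      obtain ⟨t, ht, z, hz, rfl⟩ := hx
      have e : n * (t * z) * n⁻¹ = (n * t * n⁻¹) * (n * z * n⁻¹) := by group
      rw [e]
      exact Subgroup.mul_mem_sup ((Subgroup.mem_normalizer_iff.1 hn t).1 ht) (hZ.conj_mem z hz n)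
    intro n hn
    rw [Subgroup.mem_normalizer_iff]
    intro x
    refine ⟨key n hn x, fun hx => ?_⟩
    have := key n⁻¹ (Subgroup.inv_mem _ hn) _ hx
    simpa [mul_assoc] using this
  · rw [Subgroup.relIndex_sup_right]
    have h1 : Z.relIndex S₀ ∣ Nat.card S₀ := Subgroup.relIndex_dvd_card _ _
    obtain ⟨m, hm⟩ := S₀.2.exists_card_eq
    rw [hm] at h1
    obtain ⟨j, -, hj⟩ := (Nat.dvd_prime_pow hp.out).1 h1
    exact ⟨j, hj⟩
  · intro h
    exact S₀.not_dvd_index (dvd_trans h (Subgroup.index_dvd_of_le le_sup_left))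
  · intro h
    rw [hSK] at h
    have h1 : (T₀ ⊔ Z).relIndex K ∣ T₀.relIndex K := Subgroup.relIndex_dvd_of_le_left K le_sup_left
    have h2 : T₀.relIndex K = (PK : Subgroup K).index := by
      rw [Subgroup.relIndex, hT₀, Subgroup.subgroupOf, Subgroup.comap_map_eq_self_of_injective
        K.subtype_injective]
    rw [h2] at h1
    exact PK.not_dvd_index (dvd_trans h h1)

end Setup

section Main

variable {H : Type*} [Group H] [Fintype H] (p : ℕ) [hp : Fact p.Prime]
  (Z K S T : Subgroup H) [hZ : Z.Normal] [hK : K.Normal] [Fintype Z] [Fintype S] [Fintype T]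

omit [Fintype H] [Fintype S] [Fintype T] in
theorem le_normalizer (hTK : T = S ⊓ K) : S ≤ Subgroup.normalizer (T : Set H) := by
  have key : ∀ s ∈ S, ∀ x ∈ T, s * x * s⁻¹ ∈ T := by
    intro s hs x hx
    rw [hTK] at hx ⊢
    exact ⟨S.mul_mem (S.mul_mem hs hx.1) (S.inv_mem hs), hK.conj_mem x hx.2 s⟩
  intro s hs
  rw [Subgroup.mem_normalizer_iff]
  intro x
  refine ⟨key s hs x, fun hx => ?_⟩
  have := key s⁻¹ (S.inv_mem hs) _ hx
  simpa [mul_assoc] using this

/-- the conjugation action of `S` on `T` -/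
def cS (hSN : S ≤ Subgroup.normalizer (T : Set H)) : S →* MulAut T :=
  T.normalizerMonoidHom.comp (Subgroup.inclusion hSN)

omit [Fintype H] [Fintype S] [Fintype T] in
theorem cS_spec (hTS : T ≤ S) (hSN : S ≤ Subgroup.normalizer (T : Set H)) (g : S) (t : T) :
    Subgroup.inclusion hTS (cS S T hSN g t) = g * Subgroup.inclusion hTS t * g⁻¹ := rfl

omit [Fintype H] in
theorem classInner_conj_over (hZT : Z ≤ T) {χ : H → ℂ} {θ : Z → ℂ} {e : ℕ} [Fintype H]
    (h : FR Z.subtype χ θ e) (φ₀ : T → ℂ) (m : Subgroup.normalizer (T : Set H)) :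
    classInner (fun z : Z => φ₀ (T.normalizerMonoidHom m (Subgroup.inclusion hZT z))) θ =
      classInner (fun z : Z => φ₀ (Subgroup.inclusion hZT z)) θ := by
  have e1 : ∀ z : Z, T.normalizerMonoidHom m (Subgroup.inclusion hZT z) =
      Subgroup.inclusion hZT (MulAut.conjNormal (m : H) z) := fun z => rfl
  have e2 : ∀ z : Z, θ (MulAut.conjNormal (m : H) z) = θ z :=
    fun z => h.inv MulAut.conjNormal (fun g n => MulAut.conjNormal_apply g n) m z
  unfold classInner
  congr 1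
  rw [← Equiv.sum_comp (MulAut.conjNormal (m : H) : MulAut Z).toEquiv
    (fun z => φ₀ (Subgroup.inclusion hZT z) * conj (θ z))]
  refine Finset.sum_congr rfl fun z _ => ?_
  change φ₀ (T.normalizerMonoidHom m (Subgroup.inclusion hZT z)) * conj (θ z) =
    φ₀ (Subgroup.inclusion hZT (MulAut.conjNormal (m : H) z)) *
      conj (θ (MulAut.conjNormal (m : H) z))
  rw [e1, e2]

theorem exists_M (hZT : Z ≤ T) (hTS : T ≤ S) (hTK : T = S ⊓ K)
    (hfrat : Subgroup.normalizer (T : Set H) ⊔ K = ⊤) (n : ℕ) (hn : Z.relIndex S = p ^ n)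
    (hS : ¬ p ∣ S.index) (hKT : ¬ p ∣ T.relIndex K) (hSN : S ≤ Subgroup.normalizer (T : Set H))
    {χ : H → ℂ} {θ : Z → ℂ} {e : ℕ} (h : FR Z.subtype χ θ e)
    {η : S → ℂ} {a : ℕ} (hη : FR ((Subgroup.inclusion hTS).comp (Subgroup.inclusion hZT)) η θ a)
    {φ₀ : T → ℂ} (hφ₀ : IsIrrCharacter T φ₀)
    (hov : classInner (fun z : Z => φ₀ (Subgroup.inclusion hZT z)) θ ≠ 0)
    (hI : Nat.card (inertia (cS S T hSN) φ₀) = Nat.card T) :
    ∃ M : Subgroup (H ⧸ K), M.index = p ^ (Nat.card (H ⧸ K)).factorization p := by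
  classical
  have hcl := IsIrrCharacter.isClassFunction hφ₀
  have hTK' : T ≤ K := by rw [hTK]; exact inf_le_right
  -- the exponent
  obtain ⟨k, hk⟩ : ∃ k, T.relIndex S = p ^ k := by
    have h1 := Subgroup.relIndex_mul_relIndex Z T S hZT hTS
    have h2 : T.relIndex S ∣ p ^ n := by rw [← hn, ← h1]; exact dvd_mul_left _ _
    obtain ⟨j, -, hj⟩ := (Nat.dvd_prime_pow hp.out).1 h2
    exact ⟨j, hj⟩
  obtain ⟨I', hI'⟩ : ∃ I', I' = inertia T.normalizerMonoidHom φ₀ := ⟨_, rfl⟩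
  have hTI : T.subgroupOf (Subgroup.normalizer (T : Set H)) ≤ I' := by
    intro x hx
    rw [Subgroup.mem_subgroupOf] at hx
    rw [hI', mem_inertia]
    intro t
    have : T.normalizerMonoidHom x t = (⟨x.1, hx⟩ : T) * t * (⟨x.1, hx⟩ : T)⁻¹ := rfl
    rw [this]
    exact hcl t _
  have hrange : (Subgroup.inclusion hTS).range = inertia (cS S T hSN) φ₀ := by
    apply Subgroup.eq_of_le_of_card_ge
    · rintro _ ⟨t, rfl⟩
      rw [mem_inertia]
      intro u
      have : cS S T hSN (Subgroup.inclusion hTS t) u = t * u * t⁻¹ := rfl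
      rw [this]
      exact hcl u t
    · rw [hI]
      exact (Nat.card_congr (MonoidHom.ofInjective (Subgroup.inclusion_injective hTS)).toEquiv).le
  have hIS : I' ⊓ S.subgroupOf (Subgroup.normalizer (T : Set H)) ≤
      T.subgroupOf (Subgroup.normalizer (T : Set H)) := by
    intro x hx
    obtain ⟨hx1, hx2⟩ := Subgroup.mem_inf.1 hx
    rw [Subgroup.mem_subgroupOf] at hx2 ⊢
    have hy : (⟨x.1, hx2⟩ : S) ∈ inertia (cS S T hSN) φ₀ := by
      rw [mem_inertia]
      intro t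
      rw [hI', mem_inertia] at hx1
      exact hx1 t
    rw [← hrange] at hy
    obtain ⟨t, ht⟩ := hy
    have : (t : H) = x.1 := congrArg Subtype.val ht
    rw [← this]
    exact t.2
  have hprod : ∀ x : Subgroup.normalizer (T : Set H),
      ∃ s ∈ S.subgroupOf (Subgroup.normalizer (T : Set H)), ∃ i ∈ I', x = s * i := by
    intro x
    have hφ₁ : IsIrrCharacter T (fun t => φ₀ (T.normalizerMonoidHom x⁻¹ t)) :=
      conj_isIrr T.normalizerMonoidHom hφ₀ x⁻¹
    have hov₁ : classInner (fun z : Z => φ₀ (T.normalizerMonoidHom x⁻¹ (Subgroup.inclusion hZT z))) θ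
        ≠ 0 := by
      rw [classInner_conj_over Z T hZT h φ₀ x⁻¹]; exact hov
    obtain ⟨s, hs⟩ := hη.conj_of_over (Subgroup.inclusion hTS) (Subgroup.inclusion_injective hTS)
      (Subgroup.inclusion hZT) (Subgroup.inclusion_injective hZT) (cS S T hSN)
      (cS_spec S T hTS hSN) hφ₀ hφ₁ hov hov₁
    refine ⟨(Subgroup.inclusion hSN s)⁻¹, ?_, (x⁻¹ * (Subgroup.inclusion hSN s)⁻¹)⁻¹, ?_, by group⟩
    · apply Subgroup.inv_mem
      rw [Subgroup.mem_subgroupOf]
      exact s.2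
    · apply Subgroup.inv_mem
      rw [hI', mem_inertia]
      intro t
      rw [map_mul, MulAut.mul_apply]
      have h1 := congrFun hs (T.normalizerMonoidHom (Subgroup.inclusion hSN s)⁻¹ t)
      rw [h1]
      have h2 : cS S T hSN s (T.normalizerMonoidHom (Subgroup.inclusion hSN s)⁻¹ t) = t := by
        change T.normalizerMonoidHom (Subgroup.inclusion hSN s)
          (T.normalizerMonoidHom (Subgroup.inclusion hSN s)⁻¹ t) = t
        rw [← MulAut.mul_apply, ← map_mul, mul_inv_cancel, map_one, MulAut.one_apply]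
      rw [h2]
  have hk' : (T.subgroupOf (Subgroup.normalizer (T : Set H))).relIndex
      (S.subgroupOf (Subgroup.normalizer (T : Set H))) = p ^ k := by
    rw [Subgroup.relIndex_subgroupOf hSN, hk]
  have hA' : ¬ p ∣ (T.subgroupOf (Subgroup.normalizer (T : Set H))).relIndex
      (K.subgroupOf (Subgroup.normalizer (T : Set H))) := by
    rw [← Subgroup.inf_subgroupOf_right K, Subgroup.relIndex_subgroupOf inf_le_right]
    intro hdvd
    apply hKT
    rw [← Subgroup.relIndex_mul_relIndex T (K ⊓ Subgroup.normalizer (T : Set H)) K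
      (le_inf hTK' Subgroup.le_normalizer) inf_le_left]
    exact dvd_mul_of_dvd_left hdvd _
  obtain ⟨hidx, hAI⟩ := le_of_index p I' (S.subgroupOf (Subgroup.normalizer (T : Set H)))
    (T.subgroupOf (Subgroup.normalizer (T : Set H))) (K.subgroupOf (Subgroup.normalizer (T : Set H)))
    (Subgroup.subgroupOf_mono _ hTK') hTI hIS (Subgroup.subgroupOf_mono _ hTS) hprod k hk' hA'
  -- the map to the quotient
  obtain ⟨f, hf⟩ : ∃ f : Subgroup.normalizer (T : Set H) →* H ⧸ K,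
      f = (QuotientGroup.mk' K).comp (Subgroup.normalizer (T : Set H)).subtype := ⟨_, rfl⟩
  have hsurj : Function.Surjective f := by
    intro q
    obtain ⟨x, rfl⟩ := QuotientGroup.mk_surjective q
    have hx : x ∈ Subgroup.normalizer (T : Set H) ⊔ K := by rw [hfrat]; trivial
    rw [Subgroup.mem_sup_of_normal_right] at hx
    obtain ⟨y, hy, z, hz, rfl⟩ := hx
    refine ⟨⟨y, hy⟩, ?_⟩
    rw [hf]
    change (y : H ⧸ K) = ((y * z : H) : H ⧸ K)
    rw [QuotientGroup.eq]
    simpa using hz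
  have hker : f.ker = K.subgroupOf (Subgroup.normalizer (T : Set H)) := by
    ext x
    rw [MonoidHom.mem_ker, hf, Subgroup.mem_subgroupOf]
    change ((x : H) : H ⧸ K) = 1 ↔ _
    rw [QuotientGroup.eq_one_iff]
  refine ⟨I'.map f, ?_⟩
  rw [Subgroup.index_map, hker, sup_eq_left.2 hAI, MonoidHom.range_eq_top.2 hsurj,
    Subgroup.index_top, mul_one, hidx]
  congr 1
  have h1 : K.relIndex (S ⊔ K) = K.relIndex S := Subgroup.relIndex_sup_right S K
  have h2 : K.relIndex S = T.relIndex S := by rw [hTK, Subgroup.inf_relIndex_left]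
  have h3 := Subgroup.relIndex_mul_index (le_sup_right : K ≤ S ⊔ K)
  rw [h1, h2, hk] at h3
  have hu : ¬ p ∣ (S ⊔ K).index := fun hd => hS (dvd_trans hd (Subgroup.index_dvd_of_le le_sup_left))
  change k = (K.index).factorization p
  rw [← h3, Nat.factorization_mul (pow_ne_zero _ hp.out.ne_zero) Subgroup.index_ne_zero_of_finite,
    Finsupp.add_apply, Nat.Prime.factorization_pow hp.out, Finsupp.single_eq_same,
    Nat.factorization_eq_zero_of_not_dvd hu, add_zero]

end Main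

section Eta

variable {H : Type*} [Group H] [Fintype H] (p : ℕ) [hp : Fact p.Prime]
  (Z S T : Subgroup H) [hZ : Z.Normal] [Fintype Z] [Fintype S] [Fintype T]

theorem exists_eta (hZT : Z ≤ T) (hTS : T ≤ S) (n : ℕ) (hn : Z.relIndex S = p ^ n)
    (hS : ¬ p ∣ S.index) {χ : H → ℂ} {θ : Z → ℂ} {e : ℕ} (h : FR Z.subtype χ θ e) :
    ∃ (η : S → ℂ) (a : ℕ), FR ((Subgroup.inclusion hTS).comp (Subgroup.inclusion hZT)) η θ a := by
  have h' : FR (S.subtype.comp (Subgroup.inclusion (hZT.trans hTS))) χ θ e :=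
    ⟨h.irr, h.irr', h.sq, h.res⟩
  obtain ⟨η, a, hη⟩ := h'.descend S.subtype S.subtype_injective (Subgroup.inclusion (hZT.trans hTS))
    (Subgroup.inclusion_injective _) MulAut.conjNormal (fun g n => MulAut.conjNormal_apply g n)
    S.index (Z.relIndex S) (by rw [mul_comm, S.card_mul_index]) (by
      rw [Subgroup.relIndex, mul_comm, ← (Z.subgroupOf S).card_mul_index]
      congr 1
      exact Nat.card_congr (Subgroup.subgroupOfEquivOfLe (hZT.trans hTS)).toEquiv) (by
      rw [hn]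
      exact Nat.Coprime.pow_right n ((Nat.Prime.coprime_iff_not_dvd hp.out).2 hS).symm)
  exact ⟨η, a, hη.irr, hη.irr', hη.sq, hη.res⟩

end Eta

end Cfsg.Agent.Lib.Helper19FR2
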