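import Mathlib
import Cfsg.Agent.Lib.Helper43BPDefs

set_option autoImplicit false

/-! piece `tietze` of project 43: passing to a two-generator presentation. -/

namespace Cfsg.Agent.Lib.Helper1BPTietze

open Cfsg.Agent.Lib.Helper43BP

theorem BP_two_gen {G : Type*} [Group G] {r : ℕ} (h : BP G r) (a b : G)
    (hab : Subgroup.closure ({a, b} : Set G) = ⊤) :
    ∃ rels : Finset (FreeGroup (Fin 2)), rels.card ≤ r + 2 ∧
      Nonempty (PresentedGroup (↑rels : Set (FreeGroup (Fin 2))) ≃* G) := by
  classical
  obtain ⟨α, R, hR, ⟨e⟩⟩ := h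
  -- the two evaluation maps
  let π : FreeGroup α →* G := e.toMonoidHom.comp (PresentedGroup.mk (R : Set (FreeGroup α)))
  have hπ : Function.Surjective π :=
    e.surjective.comp (PresentedGroup.mk_surjective (R : Set (FreeGroup α)))
  let ρ : FreeGroup (Fin 2) →* G := FreeGroup.lift ![a, b]
  have hρ : Function.Surjective ρ := by
    rw [← MonoidHom.range_eq_top]
    have h1 : ρ.range = Subgroup.closure (Set.range ![a, b]) := FreeGroup.range_lift_eq_closure
    rw [h1]
    have h2 : Set.range ![a, b] = ({a, b} : Set G) := by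
      ext x
      simp only [Set.mem_range, Set.mem_insert_iff, Set.mem_singleton_iff]
      constructor
      · rintro ⟨i, rfl⟩
        fin_cases i
        · left; rfl
        · right; rfl
      · rintro (rfl | rfl)
        · exact ⟨0, rfl⟩
        · exact ⟨1, rfl⟩
    rw [h2, hab]
  choose w hw using fun x : α => hρ (π (FreeGroup.of x))
  let ψ : FreeGroup α →* FreeGroup (Fin 2) := FreeGroup.lift w
  have hρψ : ∀ t, ρ (ψ t) = π t := by
    intro t
    have : ρ.comp ψ = π := by
      apply FreeGroup.ext_hom
      intro x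
      simp only [MonoidHom.comp_apply, ψ, FreeGroup.lift_apply_of]
      exact hw x
    exact DFunLike.congr_fun this t
  obtain ⟨A, hA⟩ := hπ a
  obtain ⟨B, hB⟩ := hπ b
  let rels : Finset (FreeGroup (Fin 2)) :=
    R.image ψ ∪ {FreeGroup.of 0 * (ψ A)⁻¹, FreeGroup.of 1 * (ψ B)⁻¹}
  have hπR : ∀ t ∈ R, π t = 1 := by
    intro t ht
    have : PresentedGroup.mk (R : Set (FreeGroup α)) t = 1 :=
      PresentedGroup.one_of_mem (by exact_mod_cast ht)
    simp only [π, MonoidHom.comp_apply, this, map_one]
  refine ⟨rels, ?_, ?_⟩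
  · calc rels.card ≤ (R.image ψ).card
          + ({FreeGroup.of 0 * (ψ A)⁻¹, FreeGroup.of 1 * (ψ B)⁻¹} :
              Finset (FreeGroup (Fin 2))).card := Finset.card_union_le _ _
      _ ≤ R.card + 2 := Nat.add_le_add Finset.card_image_le Finset.card_le_two
      _ ≤ r + 2 := Nat.add_le_add_right hR 2
  · -- the map to `G`
    have hg : ∀ t ∈ (rels : Set (FreeGroup (Fin 2))), FreeGroup.lift ![a, b] t = 1 := by
      intro t ht
      have ht' : t ∈ rels := by exact_mod_cast ht
      simp only [rels, Finset.mem_union, Finset.mem_image, Finset.mem_insert,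
        Finset.mem_singleton] at ht'
      rcases ht' with ⟨t0, ht0, rfl⟩ | rfl | rfl
      · exact (hρψ t0).trans (hπR t0 ht0)
      · have h1 : ρ (ψ A) = a := (hρψ A).trans hA
        change ρ (FreeGroup.of 0 * (ψ A)⁻¹) = 1
        rw [map_mul, map_inv, h1]
        simp [ρ]
      · have h1 : ρ (ψ B) = b := (hρψ B).trans hB
        change ρ (FreeGroup.of 1 * (ψ B)⁻¹) = 1
        rw [map_mul, map_inv, h1]
        simp [ρ]
    let g : PresentedGroup (rels : Set (FreeGroup (Fin 2))) →* G := PresentedGroup.toGroup hg
    have hgmk : ∀ t, g (PresentedGroup.mk _ t) = ρ t := by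
      intro t
      have : g.comp (PresentedGroup.mk (rels : Set (FreeGroup (Fin 2)))) = ρ := by
        apply FreeGroup.ext_hom
        intro x
        simp only [MonoidHom.comp_apply, ρ, FreeGroup.lift_apply_of]
        exact PresentedGroup.toGroup.of hg
      exact DFunLike.congr_fun this t
    -- the map from `G`
    have hlift : ∀ t, FreeGroup.lift
        (fun x => PresentedGroup.mk (rels : Set (FreeGroup (Fin 2))) (w x)) t
        = PresentedGroup.mk (rels : Set (FreeGroup (Fin 2))) (ψ t) := by
      intro t
      have : FreeGroup.lift (fun x => PresentedGroup.mk (rels : Set (FreeGroup (Fin 2))) (w x))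
          = (PresentedGroup.mk (rels : Set (FreeGroup (Fin 2)))).comp ψ := by
        apply FreeGroup.ext_hom
        intro x
        simp only [MonoidHom.comp_apply, ψ, FreeGroup.lift_apply_of]
      exact DFunLike.congr_fun this t
    have hf0 : ∀ t ∈ (R : Set (FreeGroup α)), FreeGroup.lift
        (fun x => PresentedGroup.mk (rels : Set (FreeGroup (Fin 2))) (w x)) t = 1 := by
      intro t ht
      rw [hlift]
      apply PresentedGroup.one_of_mem
      have ht' : t ∈ R := by exact_mod_cast ht
      have : ψ t ∈ rels := Finset.mem_union_left _ (Finset.mem_image_of_mem _ ht')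
      exact_mod_cast this
    let f0 : PresentedGroup (R : Set (FreeGroup α)) →*
        PresentedGroup (rels : Set (FreeGroup (Fin 2))) := PresentedGroup.toGroup hf0
    have hf0mk : ∀ t, f0 (PresentedGroup.mk _ t) = PresentedGroup.mk _ (ψ t) := by
      intro t
      have : f0.comp (PresentedGroup.mk (R : Set (FreeGroup α)))
          = (PresentedGroup.mk (rels : Set (FreeGroup (Fin 2)))).comp ψ := by
        apply FreeGroup.ext_hom
        intro x
        simp only [MonoidHom.comp_apply, ψ, FreeGroup.lift_apply_of]
        exact PresentedGroup.toGroup.of hf0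
      exact DFunLike.congr_fun this t
    let f : G →* PresentedGroup (rels : Set (FreeGroup (Fin 2))) := f0.comp e.symm.toMonoidHom
    have hfπ : ∀ t, f (π t) = PresentedGroup.mk _ (ψ t) := by
      intro t
      simp only [f, π, MonoidHom.comp_apply, MulEquiv.coe_toMonoidHom, MulEquiv.symm_apply_apply]
      exact hf0mk t
    have h0 : PresentedGroup.mk (rels : Set (FreeGroup (Fin 2))) (FreeGroup.of 0)
        = PresentedGroup.mk _ (ψ A) := by
      apply PresentedGroup.mk_eq_mk_of_mul_inv_mem
      have : FreeGroup.of 0 * (ψ A)⁻¹ ∈ rels :=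
        Finset.mem_union_right _ (by simp)
      exact_mod_cast this
    have h1 : PresentedGroup.mk (rels : Set (FreeGroup (Fin 2))) (FreeGroup.of 1)
        = PresentedGroup.mk _ (ψ B) := by
      apply PresentedGroup.mk_eq_mk_of_mul_inv_mem
      have : FreeGroup.of 1 * (ψ B)⁻¹ ∈ rels :=
        Finset.mem_union_right _ (by simp)
      exact_mod_cast this
    refine ⟨MonoidHom.toMulEquiv g f ?_ ?_⟩
    · -- f ∘ g = id
      apply PresentedGroup.ext
      intro x
      simp only [MonoidHom.comp_apply, MonoidHom.id_apply]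
      have hgx : g (PresentedGroup.of x) = ![a, b] x := PresentedGroup.toGroup.of hg
      rw [hgx]
      fin_cases x
      · change f a = PresentedGroup.mk _ (FreeGroup.of 0)
        rw [← hA, hfπ, h0]
      · change f b = PresentedGroup.mk _ (FreeGroup.of 1)
        rw [← hB, hfπ, h1]
    · -- g ∘ f = id
      ext y
      obtain ⟨t, rfl⟩ := hπ y
      simp only [MonoidHom.comp_apply, MonoidHom.id_apply]
      rw [hfπ, hgmk, hρψ]

end Cfsg.Agent.Lib.Helper1BPTietze
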