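import Cfsg.Agent.Lib.Helper23To6

set_option autoImplicit false
set_option linter.unusedSectionVars false
set_option linter.unusedVariables false

/-! From central extensions of the Chevalley group to arbitrary central extensions. -/

namespace Cfsg.Agent.Lib.Helper23To

open Subgroup Cfsg.Lie Cfsg.Lie.ChevalleyDatum Cfsg.Agent.Lib.Helper22ChevBasic Cfsg.Agent.Lib.Helper23Grp
  Cfsg.Agent.Lib.Helper23St Cfsg.Agent.Lib.Helper23Un
open scoped commutatorElement

/-- two lifts of a homomorphism from a perfect group through a central extension agree -/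
theorem unique_lift {Δ E G₁ : Type*} [Group Δ] [Group E] [Group G₁] (hp : commutator Δ = ⊤) (π₁ : E →* G₁)
    (hc : π₁.ker ≤ center E) (τ τ' : Δ →* E) (h : π₁.comp τ = π₁.comp τ') : τ = τ' := by
  have h' : ∀ d, π₁ (τ d) = π₁ (τ' d) := fun d => DFunLike.congr_fun h d
  have hle : commutator Δ ≤ τ.eqLocus τ' := by
    rw [commutator_eq_closure, closure_le]
    rintro _ ⟨x, y, rfl⟩
    show τ ⁅x, y⁆ = τ' ⁅x, y⁆
    rw [map_commutatorElement, map_commutatorElement]
    exact comm_congr hc (h' x) (h' y)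
  rw [hp] at hle
  apply MonoidHom.ext
  intro d
  exact hle (mem_top d)

/-- a central extension of a central extension of a perfect group is central -/
theorem central_comp {E Δ G : Type*} [Group E] [Group Δ] [Group G] (hp : commutator Δ = ⊤) (π : E →* Δ)
    (hπ : Function.Surjective π) (hc : π.ker ≤ center E) (θ : Δ →* G) (hθ : θ.ker ≤ center Δ) :
    (θ.comp π).ker ≤ center E := by
  intro z hz
  have hz' : π z ∈ center Δ := hθ hz
  have h1 : commutator E ≤ centralizer {z} := by
    rw [commutator_eq_closure, closure_le]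
    rintro _ ⟨x, y, rfl⟩
    rw [SetLike.mem_coe, mem_centralizer_iff]
    intro z' hz''
    rw [Set.mem_singleton_iff] at hz''
    rw [hz'']
    have e : ∀ w : E, π (z * w * z⁻¹) = π w := by
      intro w
      rw [map_mul, map_mul, map_inv, ← (mem_center_iff.1 hz') (π w), mul_inv_cancel_right]
    have : z * ⁅x, y⁆ * z⁻¹ = ⁅x, y⁆ := by
      rw [conjugate_commutatorElement]
      exact comm_congr hc (e x) (e y)
    calc z * ⁅x, y⁆ = (z * ⁅x, y⁆ * z⁻¹) * z := by group
      _ = ⁅x, y⁆ * z := by rw [this]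
  rw [mem_center_iff]
  intro y
  have hy : π y ∈ (commutator E).map π := by
    rw [_root_.commutator_def, Subgroup.map_commutator, ← MonoidHom.range_eq_map, MonoidHom.range_eq_top.2 hπ,
      ← _root_.commutator_def, hp]
    exact mem_top _
  obtain ⟨c, hc', hcy⟩ := hy
  have hk : c⁻¹ * y ∈ center E := hc (by rw [MonoidHom.mem_ker, map_mul, map_inv, hcy, inv_mul_cancel])
  have e1 : z * c = c * z := (mem_centralizer_iff.1 (h1 hc')) z rfl
  have e2 := (mem_center_iff.1 hk) z
  calc y * z = c * ((c⁻¹ * y) * z) := by group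
    _ = c * (z * (c⁻¹ * y)) := by rw [e2]
    _ = (c * z) * (c⁻¹ * y) := by group
    _ = (z * c) * (c⁻¹ * y) := by rw [e1]
    _ = z * y := by group

/-- the pull-back of a central extension -/
def pb {E Δ G₁ : Type*} [Group E] [Group Δ] [Group G₁] (π₁ : E →* G₁) (σ : Δ →* G₁) : Subgroup (E × Δ) :=
  (π₁.comp (MonoidHom.fst E Δ)).eqLocus (σ.comp (MonoidHom.snd E Δ))

variable {D : ChevalleyDatum} (hD : Std D) {K : Type*} [Field K]

/-- the canonical map onto the Chevalley group -/
noncomputable def thq : D.SteinbergCover K →* ↥(D.group K) :=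
  (scG hD K).θ.codRestrict (D.group K) (fun g => by
    rw [← (scG hD K).range_θ (scG_G hD K)]; exact ⟨g, rfl⟩)

theorem thq_gen {r : ℕ} (hr : r < D.nroots) (t : K) : thq hD (D.scGen K r t) = xq hD r t :=
  Subtype.ext ((scG hD K).θX r hr t)

theorem thq_surj : Function.Surjective (thq hD (K := K)) := by
  rintro ⟨g, hg⟩
  rw [← (scG hD K).range_θ (scG_G hD K)] at hg
  obtain ⟨x, rfl⟩ := hg
  exact ⟨x, rfl⟩

theorem thq_ker : (thq hD (K := K)).ker ≤ center (D.SteinbergCover K) := by
  have : (thq hD (K := K)).ker = (scG hD K).θ.ker := MonoidHom.ker_codRestrict _ _ _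
  rw [this]
  exact (scG hD K).ker_le_center (scG_G hD K)

theorem hom_ext_gen {H : Type*} [Group H] (f g : D.SteinbergCover K →* H)
    (h : ∀ r t, r < D.nroots → f (D.scGen K r t) = g (D.scGen K r t)) : f = g := by
  apply PresentedGroup.ext
  rintro ⟨r, t⟩
  have e1 : (PresentedGroup.of (⟨r, t⟩ : Fin D.nroots × K) : D.SteinbergCover K) = D.scGen K r.val t := by
    unfold scGen stX
    rw [dif_pos r.2]
    rfl
  rw [e1]
  exact h _ _ r.2

/-- lifting through arbitrary central extensions, from lifting through central extensions of the Chevalley group -/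
theorem lift_general (hp : commutator (D.SteinbergCover K) = ⊤) {G₁ E : Type*} [Group G₁] [Group E] (π₁ : E →* G₁)
    (hπ : Function.Surjective π₁) (hc : π₁.ker ≤ center E) (σ : D.SteinbergCover K →* G₁)
    (hL : ∀ π : ↥(pb π₁ σ) →* ↥(D.group K), Function.Surjective π → π.ker ≤ center ↥(pb π₁ σ) →
      ∃ τ : D.SteinbergCover K →* ↥(pb π₁ σ), ∀ r t, r < D.nroots → π (τ (D.scGen K r t)) = xq hD r t) :
    ∃ τ : D.SteinbergCover K →* E, π₁.comp τ = σ := by
  set P := pb π₁ σ with hP
  set p2 : ↥P →* D.SteinbergCover K := (MonoidHom.snd E (D.SteinbergCover K)).comp P.subtype with hp2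
  set p1 : ↥P →* E := (MonoidHom.fst E (D.SteinbergCover K)).comp P.subtype with hp1
  have hrel : ∀ x : ↥P, π₁ (p1 x) = σ (p2 x) := fun x => x.2
  have s2 : Function.Surjective p2 := by
    intro d
    obtain ⟨e, he⟩ := hπ (σ d)
    exact ⟨⟨(e, d), he⟩, rfl⟩
  have c2 : p2.ker ≤ center ↥P := by
    intro x hx
    rw [MonoidHom.mem_ker] at hx
    have h1 : p1 x ∈ center E := hc (by rw [MonoidHom.mem_ker, hrel, hx, map_one])
    rw [mem_center_iff]
    intro y
    apply Subtype.ext
    apply Prod.ext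
    · exact (mem_center_iff.1 h1) (p1 y)
    · show p2 y * p2 x = p2 x * p2 y
      rw [hx, mul_one, one_mul]
  obtain ⟨τ', hτ'⟩ := hL ((thq hD).comp p2) ((thq_surj hD).comp s2) (central_comp hp p2 s2 c2 _ (thq_ker hD))
  have hid : p2.comp τ' = MonoidHom.id _ := by
    apply unique_lift hp (thq hD) (thq_ker hD)
    apply hom_ext_gen
    intro r t hr
    show thq hD (p2 (τ' (D.scGen K r t))) = thq hD (D.scGen K r t)
    rw [thq_gen hD hr]
    exact hτ' r t hr
  refine ⟨p1.comp τ', ?_⟩
  apply MonoidHom.ext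
  intro d
  show π₁ (p1 (τ' d)) = σ d
  rw [hrel]
  have := DFunLike.congr_fun hid d
  exact congrArg σ this

end Cfsg.Agent.Lib.Helper23To
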