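import Cfsg.Agent.Lib.Helper23CT0
import Cfsg.Agent.Lib.Helper23To11

set_option autoImplicit false
set_option linter.unusedSectionVars false

/-! Project 230 (Curtis-Tits), piece W4: a homomorphism on the Steinberg cover is determined by its values on the
root elements of the fundamental roots and their negatives. -/

namespace Cfsg.Agent.Lib.Helper1CTW4

open Subgroup Cfsg.Lie Cfsg.Lie.ChevalleyDatum Cfsg.Agent.Lib.Helper22ChevBasic Cfsg.Agent.Lib.Helper23CT
open Cfsg.Agent.Lib.Helper23RG

variable {D : ChevalleyDatum} (hD : Std D) (K : Type*) [Field K]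

include hD in
/-- W4 -/
theorem hom_ext_simple {H : Type*} [Group H] (f g : D.SteinbergCover K →* H)
    (h1 : ∀ i t, i < D.rank → f (D.scGen K (D.simple i) t) = g (D.scGen K (D.simple i) t))
    (h2 : ∀ i t, i < D.rank → f (D.scGen K (D.neg (D.simple i)) t) = g (D.scGen K (D.neg (D.simple i)) t)) :
    f = g := by
  set S := (Helper23St.scG hD K).rg with hS
  have ok : S.Ok := (Helper23St.scG hD K).rg_ok
  have hx : ∀ (r : Fin D.nroots) (t : K), S.x r t = D.scGen K r.val t := fun r t => rfl
  have hs : ∀ (i : Fin D.rank) (t : K), S.x (S.simple i) t ∈ f.eqLocus g := by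
    intro i t
    exact h1 i.val t i.2
  have hn : ∀ (i : Fin D.rank) (t : K), S.x (S.neg (S.simple i)) t ∈ f.eqLocus g := by
    intro i t
    exact h2 i.val t i.2
  have hnn : ∀ i : Fin D.rank, S.nn i ∈ f.eqLocus g := by
    intro i
    exact mul_mem (mul_mem (hs i _) (hn i _)) (hs i _)
  have hall : ∀ (r : Fin D.nroots), ∀ t : K, S.x r t ∈ f.eqLocus g := by
    apply ok.reach
    · exact hs
    · intro i r ih t
      have h := ok.n_conj i r (S.η i r * t)
      rw [← mul_assoc, RG.η_mul_self ok, one_mul] at h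
      rw [← h]
      exact mul_mem (mul_mem (hnn i) (ih _)) (inv_mem (hnn i))
  apply Helper23To.hom_ext_gen
  intro r t hr
  exact hall ⟨r, hr⟩ t

end Cfsg.Agent.Lib.Helper1CTW4
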