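import Cfsg.Agent.Lib.Helper1CTW4

set_option autoImplicit false
set_option linter.unusedSectionVars false

/-! Project 230 (Curtis-Tits), piece W5: the isomorphism, from the pieces W1 (`hcts`), W2 (`hnu`), W3 (`hgen`), W4 and the
core (`hmain`).  The unlanded pieces are extra hypotheses at the end. -/

namespace Cfsg.Agent.Lib.Helper1CTW5

open Subgroup Cfsg.Lie Cfsg.Lie.ChevalleyDatum Cfsg.Agent.Lib.Helper22ChevBasic Cfsg.Agent.Lib.Helper23CT

variable {D : ChevalleyDatum} (hD : Std D) (K : Type*) [Field K]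

/-- W5, with W1, W2, W3 as hypotheses -/
theorem ct_iso_of [Finite K] (hF : R2Facts D)
    (hmain : ∀ C : CTS hD K (D.CurtisTitsGroup K), ∃ τ : D.SteinbergCover K →* D.CurtisTitsGroup K,
      ∀ i j r t, D.InRankTwoSub i j r → τ (D.scGen K r t) = C.x r t)
    (hcts : ∃ C : CTS hD K (D.CurtisTitsGroup K),
      ∀ r t, C.x r t = PresentedGroup.mk (D.curtisTitsRels K) (D.stX r t))
    (hnu : ∃ ν : D.CurtisTitsGroup K →* D.SteinbergGroup K,
      ∀ i j r t, D.InRankTwoSub i j r →
        ν (PresentedGroup.mk (D.curtisTitsRels K) (D.stX r t)) = D.stGen K r t)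
    (hgen : closure {g : D.CurtisTitsGroup K | ∃ i j r t, D.InRankTwoSub i j r ∧
      g = PresentedGroup.mk (D.curtisTitsRels K) (D.stX r t)} = ⊤) :
    ∃ e : D.CurtisTitsGroup K ≃* D.SteinbergGroup K, ∀ (i j r : ℕ) (t : K), D.InRankTwoSub i j r →
      e (PresentedGroup.mk (D.curtisTitsRels K) (D.stX r t)) = D.stGen K r t := by
  obtain ⟨C, hC⟩ := hcts
  obtain ⟨τ, hτ⟩ := hmain C
  obtain ⟨ν, hν⟩ := hnu
  obtain ⟨e0, he0⟩ := Helper23St.cover_equiv hD K
  have h1 : ν.comp τ = e0.toMonoidHom := by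
    apply Helper1CTW4.hom_ext_simple hD K
    · intro i t hi
      have hin := hF.simple i hi
      show ν (τ (D.scGen K (D.simple i) t)) = e0 (D.scGen K (D.simple i) t)
      rw [hτ i i _ t hin, hC, hν i i _ t hin]
      exact (he0 _).symm
    · intro i t hi
      have hin := hF.neg i i _ (hF.simple i hi)
      show ν (τ (D.scGen K (D.neg (D.simple i)) t)) = e0 (D.scGen K (D.neg (D.simple i)) t)
      rw [hτ i i _ t hin, hC, hν i i _ t hin]
      exact (he0 _).symm
  have h1' : ∀ a, ν (τ a) = e0 a := fun a => DFunLike.congr_fun h1 a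
  have hsurj : Function.Surjective τ := by
    rw [← MonoidHom.range_eq_top, eq_top_iff, ← hgen, closure_le]
    rintro _ ⟨i, j, r, t, hin, rfl⟩
    exact ⟨D.scGen K r t, by rw [hτ i j r t hin, hC]⟩
  have hνbij : Function.Bijective ν := by
    constructor
    · intro a b hab
      obtain ⟨a', rfl⟩ := hsurj a
      obtain ⟨b', rfl⟩ := hsurj b
      rw [h1', h1'] at hab
      rw [e0.injective hab]
    · intro y
      exact ⟨τ (e0.symm y), by rw [h1', MulEquiv.apply_symm_apply]⟩
  exact ⟨MulEquiv.ofBijective ν hνbij, fun i j r t h => hν i j r t h⟩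

end Cfsg.Agent.Lib.Helper1CTW5
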