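import Cfsg.Agent.Lib.Helper1FrobThm
import Cfsg.Agent.Lib.Helper1FpfSylow
import Cfsg.Agent.S0144

set_option autoImplicit false

namespace Cfsg.Agent.Lib.Helper1FrobConj

open Subgroup Pointwise Cfsg Cfsg.Agent.Lib.Helper1Basic Cfsg.Agent.Lib.Helper1Frob

variable {G : Type*} [Group G]

/-- TI property, elementwise -/
theorem ti {H : Subgroup G} (hH : IsFrobeniusComplement H) {a b w : G} (hw : w ≠ 1)
    (ha : a⁻¹ * w * a ∈ H) (hb : b⁻¹ * w * b ∈ H) : a⁻¹ * b ∈ H := by
  apply mem_of_conj_mem hH ha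
  · intro h
    apply hw
    have : w = a * (a⁻¹ * w * a) * a⁻¹ := by group
    rw [this, h]; group
  · have : (a⁻¹ * b)⁻¹ * (a⁻¹ * w * a) * (a⁻¹ * b) = b⁻¹ * w * b := by group
    rw [this]; exact hb

theorem conj_mem_of_ti {H : Subgroup G} {a b v : G} (hab : a⁻¹ * b ∈ H) (hb : b⁻¹ * v * b ∈ H) :
    a⁻¹ * v * a ∈ H := by
  have : a⁻¹ * v * a = (a⁻¹ * b) * (b⁻¹ * v * b) * (a⁻¹ * b)⁻¹ := by group
  rw [this]
  exact H.mul_mem (H.mul_mem hab hb) (H.inv_mem hab)

theorem isFrobeniusComplement_conj {H : Subgroup G} (hH : IsFrobeniusComplement H) (a : G) :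
    IsFrobeniusComplement (MulAut.conj a • H) := by
  refine ⟨?_, ?_, ?_⟩
  · intro h
    apply hH.1
    rw [eq_bot_iff] at h ⊢
    intro x hx
    have := h (conj_mem_conj_smul (g := a) hx)
    rw [mem_bot] at this ⊢
    have e : x = a⁻¹ * (a * x * a⁻¹) * a := by group
    rw [e, this]; group
  · intro h
    apply hH.2.1
    rw [eq_top_iff] at h ⊢
    intro x _
    have := h (mem_top (a * x * a⁻¹))
    rw [mem_conj_smul] at this
    have e : a⁻¹ * (a * x * a⁻¹) * a = x := by group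
    rwa [e] at this
  · intro g hg
    rw [eq_bot_iff]
    intro x hx
    rw [mem_bot]
    obtain ⟨h1, h2⟩ := mem_inf.mp hx
    rw [mem_conj_smul] at h1 h2 hg
    rw [mem_conj_smul] at h2
    by_contra hx1
    apply hg
    have := ti hH (a := a) (b := g * a) hx1 h1 (by
      have e : (g * a)⁻¹ * x * (g * a) = a⁻¹ * (g⁻¹ * x * g) * a := by group
      rw [e]; exact h2)
    have e : a⁻¹ * (g * a) = a⁻¹ * g * a := by group
    rwa [e] at this

theorem isFrobeniusComplement_subgroupOf {H : Subgroup G} (hH : IsFrobeniusComplement H)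
    (X : Subgroup G) (h1 : ∃ x ∈ X, x ∈ H ∧ x ≠ 1) (h2 : ¬ X ≤ H) :
    IsFrobeniusComplement (H.subgroupOf X) := by
  refine ⟨?_, ?_, ?_⟩
  · intro h
    obtain ⟨x, hxX, hxH, hx1⟩ := h1
    have : (⟨x, hxX⟩ : X) ∈ H.subgroupOf X := mem_subgroupOf.mpr hxH
    rw [h, mem_bot] at this
    exact hx1 (congrArg Subtype.val this)
  · intro h
    exact h2 (subgroupOf_eq_top.mp h)
  · intro g hg
    rw [eq_bot_iff]
    intro x hx
    rw [mem_bot]
    obtain ⟨h3, h4⟩ := mem_inf.mp hx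
    rw [mem_conj_smul] at h4
    rw [mem_subgroupOf] at h3 h4 hg
    by_contra hx1
    apply hg
    exact mem_of_conj_mem hH h3 (fun e => hx1 (Subtype.ext e)) h4

/-- two Frobenius complements have conjugates that meet nontrivially -/
theorem exists_common [Finite G] {S₁ S₂ : Subgroup G} (h₁ : IsFrobeniusComplement S₁)
    (h₂ : IsFrobeniusComplement S₂) :
    ∃ w : G, w ∉ frobeniusKernel S₁ ∧ w ∉ frobeniusKernel S₂ := by
  by_contra hcon
  push Not at hcon
  have c1 := card_kernel_compl h₁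
  have c2 := card_kernel h₂
  have hidx : ∀ S : Subgroup G, S ≠ ⊥ → 2 * S.index ≤ Nat.card G := by
    intro S hS
    rw [← S.card_mul_index]
    have : 1 < Nat.card S := by
      rw [Subgroup.one_lt_card_iff_ne_bot]; exact hS
    nlinarith [Nat.zero_le S.index]
  have i1 := hidx S₁ h₁.1
  have i2 := hidx S₂ h₂.1
  -- the complement of K(S₁) injects into K(S₂) minus 1
  have hle : Nat.card {x : G // x ∉ frobeniusKernel S₁} + 1 ≤ Nat.card (frobeniusKernel S₂) := by
    have := Fintype.ofFinite G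
    classical
    have e1 : Nat.card {x : G // x ∉ frobeniusKernel S₁} =
        (Finset.univ.filter fun x : G => x ∉ frobeniusKernel S₁).card := by
      rw [Nat.card_eq_fintype_card, Fintype.card_subtype]
    have e2 : Nat.card (frobeniusKernel S₂) =
        (Finset.univ.filter fun x : G => x ∈ frobeniusKernel S₂).card := by
      change Nat.card {x : G // x ∈ frobeniusKernel S₂} = _
      rw [Nat.card_eq_fintype_card, Fintype.card_subtype]
    rw [e1, e2]
    have h1 : (1 : G) ∉ Finset.univ.filter fun x : G => x ∉ frobeniusKernel S₁ := by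
      simp only [Finset.mem_filter, Finset.mem_univ, true_and, not_not]
      exact mem_kernel_iff.mpr (Or.inl rfl)
    rw [← Finset.card_insert_of_notMem h1]
    apply Finset.card_le_card
    intro x hx
    rw [Finset.mem_insert] at hx
    simp only [Finset.mem_filter, Finset.mem_univ, true_and] at hx ⊢
    rcases hx with rfl | hx
    · exact mem_kernel_iff.mpr (Or.inl rfl)
    · exact hcon x hx
  omega

/-- a subgroup meeting the Frobenius kernel trivially is conjugate into the complement -/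
theorem exists_conj_le_of_inter_kernel [Finite G] {H : Subgroup G} (hH : IsFrobeniusComplement H)
    (X : Subgroup G) (hX : ∀ x ∈ X, x ∈ frobeniusKernel H → x = 1) :
    ∃ g : G, MulAut.conj g • X ≤ H := by
  by_cases hX1 : X = ⊥
  · refine ⟨1, ?_⟩
    rw [hX1]
    simp
  obtain ⟨⟨x₀, hx₀X⟩, hx₀'⟩ := Subgroup.ne_bot_iff_exists_ne_one.mp hX1
  have hx₀ : x₀ ≠ 1 := fun e => hx₀' (Subtype.ext e)
  have hcov : ∀ x ∈ X, x ≠ 1 → ∃ g : G, g⁻¹ * x * g ∈ H := by
    intro x hx hx1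
    have : x ∉ frobeniusKernel H := fun h => hx1 (hX x hx h)
    exact (not_mem_kernel_iff.mp this).2
  obtain ⟨g₀, hg₀⟩ := hcov x₀ hx₀X hx₀
  by_cases hXH : X ≤ MulAut.conj g₀ • H
  · refine ⟨g₀⁻¹, ?_⟩
    intro y hy
    rw [mem_conj_smul] at hy
    have := hXH hy
    rw [mem_conj_smul] at this
    have e : g₀⁻¹ * (g₀⁻¹⁻¹ * y * g₀⁻¹) * g₀ = y := by group
    rwa [e] at this
  exfalso
  have F₁ := isFrobeniusComplement_subgroupOf (isFrobeniusComplement_conj hH g₀) X
    ⟨x₀, hx₀X, mem_conj_smul.mpr hg₀, hx₀⟩ hXH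
  -- a nonidentity element of the kernel of X
  have hk := card_kernel F₁
  have hidx : 1 < ((MulAut.conj g₀ • H).subgroupOf X).index := by
    have h0 : ((MulAut.conj g₀ • H).subgroupOf X).index ≠ 0 := Subgroup.index_ne_zero_of_finite
    have h1 : ((MulAut.conj g₀ • H).subgroupOf X).index ≠ 1 := fun h =>
      F₁.2.1 (Subgroup.index_eq_one.mp h)
    omega
  rw [← hk] at hidx
  have hnt := (Finite.one_lt_card_iff_nontrivial).mp hidx
  obtain ⟨⟨u, huK⟩, hu1'⟩ := exists_ne (⟨1, mem_kernel_iff.mpr (Or.inl rfl)⟩ :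
    frobeniusKernel ((MulAut.conj g₀ • H).subgroupOf X))
  have hu1 : u ≠ 1 := fun e => hu1' (Subtype.ext e)
  have huK' : ∀ y : X, y⁻¹ * u * y ∉ (MulAut.conj g₀ • H).subgroupOf X := by
    rcases mem_kernel_iff.mp huK with h | h
    · exact absurd h hu1
    · exact h
  have hu1G : (u : G) ≠ 1 := fun e => hu1 (Subtype.ext e)
  obtain ⟨g₂, hg₂⟩ := hcov u u.2 hu1G
  have hXH₂ : ¬ X ≤ MulAut.conj g₂ • H := by
    intro h
    have h1 := h hx₀X
    rw [mem_conj_smul] at h1
    have h2 := ti hH hx₀ hg₀ h1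
    apply huK' 1
    rw [mem_subgroupOf, mem_conj_smul]
    have := conj_mem_of_ti h2 hg₂
    simpa using this
  have F₂ := isFrobeniusComplement_subgroupOf (isFrobeniusComplement_conj hH g₂) X
    ⟨u, u.2, mem_conj_smul.mpr hg₂, hu1G⟩ hXH₂
  obtain ⟨w, hw1, hw2⟩ := exists_common F₁ F₂
  obtain ⟨hw, a, ha⟩ := not_mem_kernel_iff.mp hw1
  obtain ⟨-, b, hb⟩ := not_mem_kernel_iff.mp hw2
  rw [mem_subgroupOf, mem_conj_smul] at ha hb
  have hwG : (w : G) ≠ 1 := fun e => hw (Subtype.ext e)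
  have h3 := ti hH (a := (a : G) * g₀) (b := (b : G) * g₂) hwG (by
      have e : ((a : G) * g₀)⁻¹ * w * ((a : G) * g₀) = g₀⁻¹ * ((a⁻¹ * w * a : X) : G) * g₀ := by
        simp only [Subgroup.coe_mul, Subgroup.coe_inv]; group
      rw [e]; exact ha) (by
      have e : ((b : G) * g₂)⁻¹ * w * ((b : G) * g₂) = g₂⁻¹ * ((b⁻¹ * w * b : X) : G) * g₂ := by
        simp only [Subgroup.coe_mul, Subgroup.coe_inv]; group
      rw [e]; exact hb)
  apply huK' (b⁻¹ * a)
  rw [mem_subgroupOf, mem_conj_smul]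
  have h4 := conj_mem_of_ti (v := (b : G) * u * (b : G)⁻¹) h3 (by
    have e : ((b : G) * g₂)⁻¹ * ((b : G) * u * (b : G)⁻¹) * ((b : G) * g₂) = g₂⁻¹ * u * g₂ := by group
    rw [e]; exact hg₂)
  have e : g₀⁻¹ * (((b⁻¹ * a)⁻¹ * u * (b⁻¹ * a) : X) : G) * g₀ =
      ((a : G) * g₀)⁻¹ * ((b : G) * u * (b : G)⁻¹) * ((a : G) * g₀) := by
    simp only [Subgroup.coe_mul, Subgroup.coe_inv]; group
  rw [e]; exact h4

theorem fpf_of_complement {H N : Subgroup G} (hH : IsFrobeniusComplement H)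
    (hd : Disjoint N H) : ∀ h ∈ H, h ≠ 1 → N ⊓ centralizer {h} = ⊥ := by
  intro h hh h1
  rw [eq_bot_iff]
  intro c hc
  obtain ⟨hcN, hcc⟩ := mem_inf.mp hc
  rw [mem_centralizer_singleton_iff] at hcc
  have h2 : c ∈ H := by
    apply mem_of_conj_mem' hH hh h1
    have : c * h * c⁻¹ = h := by rw [hcc]; group
    rw [this]; exact hh
  exact (disjoint_iff.mp hd) ▸ mem_inf.mpr ⟨hcN, h2⟩

/-- the smaller of two Frobenius complements meets the kernel of the other trivially -/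
theorem inter_kernel_of_card_le [Finite G] {H H₀ : Subgroup G} (hH : IsFrobeniusComplement H)
    (hH₀ : IsFrobeniusComplement H₀) (hle : Nat.card H₀ ≤ Nat.card H) :
    ∀ x ∈ H₀, x ∈ frobeniusKernel H → x = 1 := by
  intro x hx hxK
  by_contra hx1
  obtain ⟨N, hN, hNn, hNc⟩ := Cfsg.Agent.Lib.Helper1FrobThm.frobenius_theorem H hH
  obtain ⟨N₀, hN₀, hN₀n, hN₀c⟩ := Cfsg.Agent.Lib.Helper1FrobThm.frobenius_theorem H₀ hH₀
  have hxN : x ∈ N := by
    have : x ∈ (N : Set G) := hN ▸ hxK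
    exact this
  have hfpf := fpf_of_complement hH₀ hN₀c.disjoint x hx hx1
  let φ : N₀ → N₀ := fun n => ⟨(n : G)⁻¹ * (x⁻¹ * n * x), N₀.mul_mem (N₀.inv_mem n.2) (by
    have := hN₀n.conj_mem n n.2 x⁻¹
    simpa using this)⟩
  have hinj : Function.Injective φ := by
    intro n m hnm
    have h1 : (n : G)⁻¹ * (x⁻¹ * n * x) = (m : G)⁻¹ * (x⁻¹ * m * x) := congrArg Subtype.val hnm
    have h2 : (m : G) * (n : G)⁻¹ ∈ N₀ ⊓ centralizer {x} := by
      refine mem_inf.mpr ⟨N₀.mul_mem m.2 (N₀.inv_mem n.2), ?_⟩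
      rw [mem_centralizer_singleton_iff]
      have h3 : (m : G) * ((n : G)⁻¹ * (x⁻¹ * n * x)) * (x⁻¹ * (n : G)⁻¹) * x =
          (m : G) * ((m : G)⁻¹ * (x⁻¹ * m * x)) * (x⁻¹ * (n : G)⁻¹) * x := by rw [h1]
      have h4 : (m : G) * ((n : G)⁻¹ * (x⁻¹ * n * x)) * (x⁻¹ * (n : G)⁻¹) * x =
          m * (n : G)⁻¹ * x⁻¹ * x := by group
      have h5 : (m : G) * ((m : G)⁻¹ * (x⁻¹ * m * x)) * (x⁻¹ * (n : G)⁻¹) * x =
          x⁻¹ * (m * (n : G)⁻¹) * x := by group
      rw [h4, h5] at h3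
      calc (m : G) * (n : G)⁻¹ * x = x * (x⁻¹ * (m * (n : G)⁻¹) * x) := by group
        _ = x * (m * (n : G)⁻¹ * x⁻¹ * x) := by rw [h3]
        _ = x * (m * (n : G)⁻¹) := by group
    rw [hfpf, mem_bot] at h2
    apply Subtype.ext
    exact (mul_inv_eq_one.mp h2).symm
  have hsurj := Finite.injective_iff_surjective.mp hinj
  have hNN : N₀ ≤ N := by
    intro m hm
    obtain ⟨n, hn⟩ := hsurj ⟨m, hm⟩
    have h1 : (n : G)⁻¹ * (x⁻¹ * n * x) = m := congrArg Subtype.val hn
    rw [← h1]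
    have e : (n : G)⁻¹ * (x⁻¹ * n * x) = ((n : G)⁻¹ * x⁻¹ * (n : G)⁻¹⁻¹) * x := by group
    rw [e]
    exact N.mul_mem (hNn.conj_mem _ (N.inv_mem hxN) _) hxN
  have hxN₀ : x ∉ N₀ := by
    intro h
    have : x ∈ N₀ ⊓ H₀ := mem_inf.mpr ⟨h, hx⟩
    rw [disjoint_iff.mp hN₀c.disjoint, mem_bot] at this
    exact hx1 this
  have hlt : N₀ < N := lt_of_le_of_ne hNN (fun h => hxN₀ (h ▸ hxN))
  have c1 := card_lt_card_of_lt hlt
  have c2 := hNc.card_mul_card
  have c3 := hN₀c.card_mul_card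
  have hpos : 0 < Nat.card H₀ := Nat.card_pos
  nlinarith

/-- S0037 -/
theorem exists_conj_le_of_card_le [Finite G] {H H₀ : Subgroup G} (hH : IsFrobeniusComplement H)
    (hH₀ : IsFrobeniusComplement H₀) (hle : Nat.card H₀ ≤ Nat.card H) :
    ∃ g : G, MulAut.conj g • H₀ ≤ H :=
  exists_conj_le_of_inter_kernel hH H₀ (inter_kernel_of_card_le hH hH₀ hle)

theorem ne_bot_of_isComplement' [Finite G] {N H : Subgroup G} (hc : IsComplement' N H)
    (hH : H ≠ ⊤) : N ≠ ⊥ := by
  intro h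
  apply hH
  apply Subgroup.eq_top_of_card_eq
  have := hc.card_mul_card
  rwa [h, Subgroup.card_bot, one_mul] at this

/-- abelian subgroups of a Frobenius complement are cyclic -/
theorem isCyclic_of_abelian_of_le [Finite G] {H : Subgroup G} (hH : IsFrobeniusComplement H)
    (E : Subgroup G) (hE : E ≤ H) [IsMulCommutative E] : IsCyclic E := by
  obtain ⟨N, hN, hNn, hNc⟩ := Cfsg.Agent.Lib.Helper1FrobThm.frobenius_theorem H hH
  apply Cfsg.Agent.Lib.Helper1FpfSylow.isCyclic_of_abelian E N (by rw [normalizer_eq_top]; exact le_top)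
    (ne_bot_of_isComplement' hNc hH.2.1)
  intro h hh h1
  exact fpf_of_complement hH hNc.disjoint h (hE hh) h1

/-- subgroups of order `p * q` of a Frobenius complement are cyclic -/
theorem isCyclic_of_card_mul_of_le [Finite G] {H : Subgroup G} (hH : IsFrobeniusComplement H)
    (E : Subgroup G) (hE : E ≤ H) {p q : ℕ} (hp : p.Prime) (hq : q.Prime)
    (hcard : Nat.card E = p * q) : IsCyclic E := by
  obtain ⟨N, hN, hNn, hNc⟩ := Cfsg.Agent.Lib.Helper1FrobThm.frobenius_theorem H hH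
  have hfpf : ∀ h ∈ E, h ≠ 1 → N ⊓ centralizer {h} = ⊥ := fun h hh h1 =>
    fpf_of_complement hH hNc.disjoint h (hE hh) h1
  have hEN : E ≤ normalizer (N : Set G) := by rw [normalizer_eq_top]; exact le_top
  have hsol : Group.IsSolvable E := Cfsg.Agent.S0144.result p q 1 1 hp hq (by rw [hcard]; ring)
  obtain ⟨V, hVK, hV, hVc, hVE⟩ := Cfsg.Agent.Lib.Helper1FpfSylow.exists_invariant_abelian E N hEN
    (ne_bot_of_isComplement' hNc hH.2.1)
    (Cfsg.Agent.Lib.Helper1FpfSylow.coprime_card E N hEN hfpf) (Or.inl hsol)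
  exact Cfsg.Agent.Lib.Helper1Fpf.isCyclic_of_fpf E V hV hVE (fun a ha ha1 => by
    rw [eq_bot_iff, ← hfpf a ha ha1]
    exact inf_le_inf_right _ hVK) (Or.inr ⟨p, q, hp, hq, hcard⟩)

/-- a Frobenius complement is not itself a Frobenius group -/
theorem not_isFrobeniusComplement_of_complement [Finite G] {H : Subgroup G}
    (hH : IsFrobeniusComplement H) (L : Subgroup H) : ¬ IsFrobeniusComplement L := by
  intro hL
  obtain ⟨M, hM, hMn, hMc⟩ := Cfsg.Agent.Lib.Helper1FrobThm.frobenius_theorem L hL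
  have hMne := ne_bot_of_isComplement' hMc hL.2.1
  have hfpfM := fpf_of_complement hL hMc.disjoint
  -- an element of prime order in L
  have hL1 : Nat.card L ≠ 1 := fun h => hL.1 ((Subgroup.card_eq_one).mp h)
  obtain ⟨p, hp, hpL⟩ := Nat.exists_prime_and_dvd hL1
  have : Fact p.Prime := ⟨hp⟩
  obtain ⟨⟨x, hxL⟩, hx⟩ := exists_prime_orderOf_dvd_card' p hpL
  rw [Subgroup.orderOf_mk] at hx
  have hx1 : x ≠ 1 := by
    intro h
    rw [h, orderOf_one] at hx
    exact hp.one_lt.ne hx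
  have hzL : zpowers x ≤ L := zpowers_le.mpr hxL
  have hzM : zpowers x ≤ normalizer (M : Set H) := by rw [normalizer_eq_top]; exact le_top
  have hfz : ∀ h ∈ zpowers x, h ≠ 1 → M ⊓ centralizer {h} = ⊥ := fun h hh h1 =>
    hfpfM h (hzL hh) h1
  have hcop := Cfsg.Agent.Lib.Helper1FpfSylow.coprime_card (zpowers x) M hzM hfz
  obtain ⟨V, hVM, hV, hVc, hVx⟩ := Cfsg.Agent.Lib.Helper1FpfSylow.exists_invariant_abelian
    (zpowers x) M hzM hMne hcop (Or.inl inferInstance)
  -- V is cyclic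
  have hVcyc : IsCyclic V := by
    have h1 : IsCyclic (V.map H.subtype) :=
      isCyclic_of_abelian_of_le hH (V.map H.subtype) (map_subtype_le _)
    exact (V.equivMapOfInjective H.subtype H.subtype_injective).isCyclic.mpr h1
  have hV1 : Nat.card V ≠ 1 := fun h => hV ((Subgroup.card_eq_one).mp h)
  obtain ⟨q, hq, hqV⟩ := Nat.exists_prime_and_dvd hV1
  have : Fact q.Prime := ⟨hq⟩
  obtain ⟨⟨y, hyV⟩, hy⟩ := exists_prime_orderOf_dvd_card' q hqV
  rw [Subgroup.orderOf_mk] at hy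
  have hy1 : y ≠ 1 := by
    intro h
    rw [h, orderOf_one] at hy
    exact hq.one_lt.ne hy
  have hpq : p ≠ q := by
    rintro rfl
    rw [Nat.card_zpowers, hx] at hcop
    have h1 : p ∣ Nat.card M := hqV.trans (Subgroup.card_dvd_of_le hVM)
    have := Nat.Coprime.eq_one_of_dvd hcop h1
    exact hp.one_lt.ne' this
  -- x normalizes zpowers y
  have hxy : zpowers (x * y * x⁻¹) = zpowers y := by
    apply Cfsg.Agent.Lib.Helper29Basic.eq_of_card_eq_of_le_cyclic hVcyc
    · exact zpowers_le.mpr (conj_mem_of_le_normalizer hVx (mem_zpowers x) hyV)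
    · exact zpowers_le.mpr hyV
    · rw [Nat.card_zpowers, Nat.card_zpowers]
      have : x * y * x⁻¹ = MulAut.conj x y := rfl
      rw [this, MulEquiv.orderOf_eq]
  have hnorm : zpowers x ≤ normalizer (zpowers y : Set H) := by
    rw [zpowers_le, mem_normalizer_iff_map_conj_eq, MonoidHom.map_zpowers]
    exact hxy
  have h0 : zpowers y ⊓ zpowers x = ⊥ := by
    apply disjoint_iff.mp
    apply disjoint_of_coprime_natCard
    rw [Nat.card_zpowers, Nat.card_zpowers, hx, hy]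
    exact (Nat.coprime_primes hq hp).mpr hpq.symm
  have hcard := Cfsg.Agent.Lib.Helper29Basic.card_of_complIn
    (Cfsg.Agent.Lib.Helper29Basic.complIn_sup_of_le_normalizer h0 hnorm)
  rw [Nat.card_zpowers, Nat.card_zpowers, hx, hy] at hcard
  have hcyc : IsCyclic ((zpowers y ⊔ zpowers x).map H.subtype) :=
    isCyclic_of_card_mul_of_le hH _ (map_subtype_le _) hq hp
      (by rw [Subgroup.card_map_of_injective H.subtype_injective, hcard])
  have hcyc' : IsCyclic (zpowers y ⊔ zpowers x : Subgroup H) :=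
    ((zpowers y ⊔ zpowers x).equivMapOfInjective H.subtype H.subtype_injective).isCyclic.mpr hcyc
  have hcomm := Cfsg.Agent.Lib.Helper29Basic.comm_of_cyclic hcyc'
    (mem_sup_left (mem_zpowers y)) (mem_sup_right (mem_zpowers x))
  have hmem : y ∈ M ⊓ centralizer {x} := by
    refine mem_inf.mpr ⟨hVM hyV, ?_⟩
    rw [mem_centralizer_singleton_iff]
    exact hcomm
  rw [hfpfM x hxL hx1, mem_bot] at hmem
  exact hy1 hmem

/-- S0038: all Frobenius complements are conjugate -/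
theorem exists_conj_eq [Finite G] (H H₀ : Subgroup G) (hH : IsFrobeniusComplement H)
    (hH₀ : IsFrobeniusComplement H₀) : ∃ g : G, MulAut.conj g • H₀ = H := by
  wlog hle : Nat.card H₀ ≤ Nat.card H generalizing H H₀
  · obtain ⟨g, hg⟩ := this H₀ H hH₀ hH (by omega)
    refine ⟨g⁻¹, ?_⟩
    rw [← hg, map_inv, inv_smul_smul]
  obtain ⟨g, hg⟩ := exists_conj_le_of_card_le hH hH₀ hle
  refine ⟨g, ?_⟩
  by_contra hne
  have F := isFrobeniusComplement_conj hH₀ g
  obtain ⟨⟨x, hx⟩, hx1⟩ := Subgroup.ne_bot_iff_exists_ne_one.mp F.1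
  have F' := isFrobeniusComplement_subgroupOf F H ⟨x, hg hx, hx, fun e => hx1 (Subtype.ext e)⟩
    (fun h => hne (le_antisymm hg h))
  exact not_isFrobeniusComplement_of_complement hH _ F'

end Cfsg.Agent.Lib.Helper1FrobConj
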