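import Mathlib
import Cfsg.Agent.Lib.Helper44ODefs
import Cfsg.Agent.Lib.Helper1OPerm

set_option autoImplicit false

/-! PROJECT 46, piece `sigma`: a Levi transvection is conjugate in `Ω` to a Siegel element. -/

namespace Cfsg.Agent.Lib.Helper1Osigma

open Matrix Cfsg Cfsg.Agent.Lib.Helper44Wt Cfsg.Agent.Lib.Helper44Lam
  Cfsg.Agent.Lib.Helper44SLDefs Cfsg.Agent.Lib.Helper44ODefs Cfsg.Agent.Lib.Helper1OPerm

open scoped commutatorElement

variable {F : Type*} [Field F]

variable {n : ℕ}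

theorem sw_inl (j i : Fin n) : Equiv.swap (Sum.inl j : Fin n ⊕ Fin n) (Sum.inr j) (Sum.inl i) =
    if i = j then Sum.inr i else Sum.inl i := by
  by_cases h : i = j
  · subst h; simp
  · rw [if_neg h]
    exact Equiv.swap_apply_of_ne_of_ne (by simpa using h) (by simp)

theorem sw_inr (j i : Fin n) : Equiv.swap (Sum.inl j : Fin n ⊕ Fin n) (Sum.inr j) (Sum.inr i) =
    if i = j then Sum.inl i else Sum.inr i := by
  by_cases h : i = j
  · subst h; simp
  · rw [if_neg h]
    exact Equiv.swap_apply_of_ne_of_ne (by simp) (by simpa using h)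

theorem rI_mul_self (j : Fin n) : (rI j : IO n F) * rI j = 1 := by
  apply Subtype.ext
  rw [Subgroup.coe_mul, rI_coe, ← map_mul, Equiv.swap_mul_self, map_one]
  rfl

theorem p_mul_rI (i j : Fin n) :
    (gI (pG (Fin n) F (Equiv.swap i j)) : IO n F) * rI i = rI j * gI (pG (Fin n) F (Equiv.swap i j)) := by
  apply Subtype.ext
  rw [Subgroup.coe_mul, Subgroup.coe_mul, rI_coe, rI_coe, gI_pG, ← map_mul, ← map_mul,
    Equiv.mul_swap_eq_swap_mul]
  simp

theorem rI_rI_mem (i j : Fin n) :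
    (rI i : IO n F) * rI j ∈ Cfsg.Omega F (Cfsg.quadFormPlus n F) := by
  set p : IO n F := gI (pG (Fin n) F (Equiv.swap i j)) with hp
  have h1 : p * rI i = rI j * p := p_mul_rI i j
  have h2 : (rI i : IO n F)⁻¹ = rI i := inv_eq_of_mul_eq_one_left (rI_mul_self i)
  have h3 : ⁅(rI i : IO n F), p⁆ = rI i * rI j := by
    rw [commutatorElement_def, h2]
    calc rI i * p * rI i * p⁻¹ = rI i * (p * rI i) * p⁻¹ := by group
      _ = rI i * (rI j * p) * p⁻¹ := by rw [h1]
      _ = rI i * rI j := by group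
  rw [← h3]
  exact Subgroup.commutator_mem_commutator (Subgroup.mem_top _) (Subgroup.mem_top p)

theorem g_mulVec (k : ℕ) (v : Fin (k + 2) ⊕ Fin (k + 2) → F) :
    (((gI ((slToSq (k + 2) F (x01 k F (Multiplicative.ofAdd 1)) : sqGL (k + 2) F) :
        GL (Fin (k + 2)) F) : IO (k + 2) F) : GL (Fin (k + 2) ⊕ Fin (k + 2)) F) :
        Matrix (Fin (k + 2) ⊕ Fin (k + 2)) (Fin (k + 2) ⊕ Fin (k + 2)) F) *ᵥ v =
      Sum.elim (fun i => v (Sum.inl i) + if i = 0 then v (Sum.inl 1) else 0)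
        (fun i => v (Sum.inr i) - if i = 1 then v (Sum.inr 0) else 0) := by
  rw [gI_mulVec, ← Subgroup.coe_inv, ← map_inv, ← map_inv, ← ofAdd_neg, slToSq_coe, slToSq_coe,
    x01_coe, x01_coe]
  simp only [Matrix.transvection, Matrix.transpose_add, Matrix.transpose_one,
    Matrix.transpose_single, Matrix.add_mulVec, Matrix.one_mulVec, Matrix.single_mulVec]
  ext x
  rcases x with i | i
  · simp [Function.update_apply]
  · simp [Function.update_apply, sub_eq_add_neg]
    split_ifs <;> simp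

theorem u_mulVec (k : ℕ) (w : Fin (k + 2) ⊕ Fin (k + 2) → F) :
    (((uI (Multiplicative.ofAdd (X0 k F)) : IO (k + 2) F) : GL (Fin (k + 2) ⊕ Fin (k + 2)) F) :
        Matrix (Fin (k + 2) ⊕ Fin (k + 2)) (Fin (k + 2) ⊕ Fin (k + 2)) F) *ᵥ w =
      Sum.elim (fun i => w (Sum.inl i) + (if i = 0 then w (Sum.inr 1) else 0)
          - (if i = 1 then w (Sum.inr 0) else 0))
        (fun i => w (Sum.inr i)) := by
  rw [uI_coe, fromBlocks_mulVec']
  simp only [X0, Matrix.transpose_single, Matrix.sub_mulVec, Matrix.one_mulVec,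
    Matrix.single_mulVec, Matrix.zero_mulVec]
  ext x
  rcases x with i | i
  · simp [Function.update_apply, add_sub_assoc]
  · simp

theorem exists_sigma [Fintype F] [DecidableEq F] (k : ℕ) (hk : 1 ≤ k) :
    ∃ σ : IO (k + 2) F, σ ∈ Cfsg.Omega F (Cfsg.quadFormPlus (k + 2) F) ∧
      σ * gI ((slToSq (k + 2) F (x01 k F (Multiplicative.ofAdd 1)) : sqGL (k + 2) F) :
        GL (Fin (k + 2)) F) * σ⁻¹ = uI (Multiplicative.ofAdd (X0 k F)) := by
  let i2 : Fin (k + 2) := ⟨2, by omega⟩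
  have h01 : (0 : Fin (k + 2)) ≠ 1 := by simp [Fin.ext_iff]
  have h02 : (0 : Fin (k + 2)) ≠ i2 := by simp [Fin.ext_iff, i2]
  have h12 : (1 : Fin (k + 2)) ≠ i2 := by simp [Fin.ext_iff, i2]
  refine ⟨rI 1 * rI i2, rI_rI_mem 1 i2, ?_⟩
  rw [mul_inv_eq_iff_eq_mul]
  apply Subtype.ext
  apply GL_ext
  intro v
  simp only [Subgroup.coe_mul, Matrix.GeneralLinearGroup.coe_mul, ← Matrix.mulVec_mulVec]
  rw [g_mulVec, u_mulVec]
  simp only [rI_coe, pG_mulVec, Equiv.swap_inv]
  ext x
  rcases x with i | i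
  · by_cases hi0 : i = 0
    · subst hi0
      simp [sw_inl, sw_inr, h01, h02, h12, h01.symm, h02.symm, h12.symm]
    · by_cases hi1 : i = 1
      · subst hi1
        simp [sw_inl, sw_inr, h01, h02, h12, h01.symm, h02.symm, h12.symm]
      · by_cases hi2 : i = i2
        · subst hi2
          simp [sw_inl, sw_inr, h01, h02, h12, h01.symm, h02.symm, h12.symm]
        · simp [sw_inl, sw_inr, hi0, hi1, hi2]
  · by_cases hi0 : i = 0
    · subst hi0
      simp [sw_inl, sw_inr, h01, h02, h12, h01.symm, h02.symm, h12.symm]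
    · by_cases hi1 : i = 1
      · subst hi1
        simp [sw_inl, sw_inr, h01, h02, h12, h01.symm, h02.symm, h12.symm]
      · by_cases hi2 : i = i2
        · subst hi2
          simp [sw_inl, sw_inr, h01, h02, h12, h01.symm, h02.symm, h12.symm]
        · simp [sw_inl, sw_inr, hi0, hi1, hi2]

end Cfsg.Agent.Lib.Helper1Osigma
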