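import Mathlib
import Cfsg.Prelude.Def_Characters
import Cfsg.Agent.S0157

set_option autoImplicit false

/-! PROJECT 44, piece `exist`: the irreducible constituent of degree `(q^n - q)/(q - 1)` of the
permutation representation of `SL_n(q)` on the points of the projective space. -/

namespace Cfsg.Agent.Lib.Helper1SLexist

open Matrix Cfsg

open scoped LinearAlgebra.Projectivization

theorem exists_rep {F : Type*} [Field F] [Fintype F] [DecidableEq F] (n : ℕ) (hn : 2 ≤ n) :
    ∃ ρ : Representation ℂ (Matrix.SpecialLinearGroup (Fin n) F)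
      (Fin ((Fintype.card F ^ n - Fintype.card F) / (Fintype.card F - 1)) → ℂ), ρ.IsIrreducible := by
  have hfin : Finite (ℙ F (Fin n → F)) := (Projectivization.finite_iff_of_finite F _).2 inferInstance
  have hq : 1 < Fintype.card F := Fintype.one_lt_card
  have hcard : Fintype.card F ^ n = Nat.card (ℙ F (Fin n → F)) * (Fintype.card F - 1) + 1 := by
    have := Projectivization.card' F (Fin n → F)
    rw [Nat.card_eq_fintype_card, Nat.card_eq_fintype_card (α := F), Fintype.card_fun,
      Fintype.card_fin] at this
    exact this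
  set q := Fintype.card F with hqdef
  set N := Nat.card (ℙ F (Fin n → F)) with hN
  have h2 : 2 ≤ N := by
    by_contra hlt
    have hN1 : N ≤ 1 := by omega
    have h3 : q ^ 2 ≤ q ^ n := Nat.pow_le_pow_right (by omega) hn
    have h4 : q ^ n ≤ 1 * (q - 1) + 1 := by
      rw [hcard]
      exact Nat.add_le_add_right (Nat.mul_le_mul_right _ hN1) 1
    have h5 : 1 * (q - 1) + 1 = q := by omega
    rw [h5] at h4
    have h6 : q * 2 ≤ q ^ 2 := by
      rw [pow_two]
      exact Nat.mul_le_mul_left q hq
    omega
  have h2t : MulAction.IsMultiplyPretransitive (Matrix.SpecialLinearGroup (Fin n) F)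
    (ℙ F (Fin n → F)) 2 := inferInstance
  have ht : MulAction.IsPretransitive (Matrix.SpecialLinearGroup (Fin n) F) (ℙ F (Fin n → F)) :=
    MulAction.isPretransitive_of_is_two_pretransitive
  obtain ⟨m, ρ, hirr, hch⟩ := (Cfsg.Agent.S0157.result (ℙ F (Fin n → F)) h2).2 h2t
  have h1 := congrFun hch 1
  rw [Representation.char_one, Module.finrank_fin_fun] at h1
  have h5 : Nat.card (MulAction.fixedBy (ℙ F (Fin n → F))
      (1 : Matrix.SpecialLinearGroup (Fin n) F)) = N := by
    rw [MulAction.fixedBy_one_eq_univ, Nat.card_coe_set_eq, Set.ncard_univ]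
  simp only [h5] at h1
  have h6 : m + 1 = N := by
    have : ((m + 1 : ℕ) : ℂ) = (N : ℂ) := by
      push_cast
      rw [h1]
      ring
    exact_mod_cast this
  have hm : (q ^ n - q) / (q - 1) = m := by
    apply Nat.div_eq_of_eq_mul_left (by omega)
    rw [hcard, ← h6]
    have : (m + 1) * (q - 1) + 1 = m * (q - 1) + q := by
      rw [add_mul, one_mul]
      omega
    rw [this, Nat.add_sub_cancel]
  rw [hm]
  exact ⟨ρ, hirr⟩

end Cfsg.Agent.Lib.Helper1SLexist
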