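import Mathlib
import Cfsg.Agent.Lib.Helper44SLDefs

set_option autoImplicit false

/-! PROJECT 44, piece `gldata`: root group, Borel subgroup, Bruhat decomposition and torus of
`GL₂`. -/

namespace Cfsg.Agent.Lib.Helper1SLgldata

open Matrix Cfsg Cfsg.Agent.Lib.Helper44Wt Cfsg.Agent.Lib.Helper44SLDefs
  Cfsg.Agent.Lib.Helper44P1 Cfsg.Agent.Lib.Helper44GL2

variable {F : Type*} [Field F]

theorem xGL_injective : Function.Injective (xGL : Multiplicative F →* GL (Fin 2) F) := by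
  intro a b h
  have h1 : tt (Multiplicative.toAdd a) = tt (Multiplicative.toAdd b) :=
    congrArg (fun g : GL (Fin 2) F => (g : Matrix (Fin 2) (Fin 2) F)) h
  have h2 := congrFun (congrFun h1 0) 1
  simpa [tt] using h2

theorem det_ne_zero' (g : GL (Fin 2) F) : (g : Matrix (Fin 2) (Fin 2) F).det ≠ 0 := by
  have := (Matrix.GeneralLinearGroup.det g).ne_zero
  rwa [Matrix.GeneralLinearGroup.val_det_apply] at this

theorem gl_norm (g : GL (Fin 2) F) (hg : g ∈ Bor (iG F)) (c : F) :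
    ∃ c' : F, g * xGL (Multiplicative.ofAdd c) * g⁻¹ = xGL (Multiplicative.ofAdd c') := by
  rw [mem_Bor_iff] at hg
  have hg' : (g : Matrix (Fin 2) (Fin 2) F) 1 0 = 0 := hg
  have hdet := det_ne_zero' g
  rw [Matrix.det_fin_two, hg', mul_zero, sub_zero] at hdet
  have hd : (g : Matrix (Fin 2) (Fin 2) F) 1 1 ≠ 0 := right_ne_zero_of_mul hdet
  refine ⟨(g : Matrix (Fin 2) (Fin 2) F) 0 0 * c / (g : Matrix (Fin 2) (Fin 2) F) 1 1, ?_⟩
  rw [mul_inv_eq_iff_eq_mul]
  apply Units.ext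
  rw [Units.val_mul, Units.val_mul, xGL_coe, xGL_coe]
  ext i j
  fin_cases i <;> fin_cases j <;>
    simp [tt, Matrix.mul_apply, Fin.sum_univ_two, hg']
  field_simp
  ring

theorem gl_dc (g : GL (Fin 2) F) (hg : g ∉ Bor (iG F)) :
    ∃ h ∈ Bor (iG F), ∃ h' ∈ Bor (iG F), g = h * w2 * h' := by
  rw [mem_Bor_iff] at hg
  have hc : (g : Matrix (Fin 2) (Fin 2) F) 1 0 ≠ 0 := hg
  have hdet := det_ne_zero' g
  set a := (g : Matrix (Fin 2) (Fin 2) F) 0 0 with ha
  set b := (g : Matrix (Fin 2) (Fin 2) F) 0 1 with hb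
  set c := (g : Matrix (Fin 2) (Fin 2) F) 1 0 with hc'
  set d := (g : Matrix (Fin 2) (Fin 2) F) 1 1 with hd
  have hdet' : a * d - b * c ≠ 0 := by
    rw [Matrix.det_fin_two] at hdet
    exact hdet
  refine ⟨xGL (Multiplicative.ofAdd (a / c)), ?_,
    Matrix.GeneralLinearGroup.mkOfDetNeZero !![c, d; 0, (a * d - b * c) / c] ?_, ?_, ?_⟩
  · rw [mem_Bor_iff]
    show tt (a / c) 1 0 = 0
    simp [tt]
  · rw [Matrix.det_fin_two_of]
    field_simp
    simpa [mul_comm] using hdet'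
  · rw [mem_Bor_iff]
    show (!![c, d; 0, (a * d - b * c) / c] : Matrix (Fin 2) (Fin 2) F) 1 0 = 0
    simp
  · apply Units.ext
    rw [Units.val_mul, Units.val_mul, xGL_coe, w2_coe]
    show (g : Matrix (Fin 2) (Fin 2) F) = tt (a / c) * !![0, -1; 1, 0] *
      !![c, d; 0, (a * d - b * c) / c]
    ext i j
    fin_cases i <;> fin_cases j <;>
      simp [tt, Matrix.mul_apply, Fin.sum_univ_two, ← ha, ← hb, ← hc', ← hd]
    · field_simp
    · field_simp
      ring

theorem gl_tor (t : F) (ht : t ≠ 0) : ∃ g : GL (Fin 2) F, ∀ c : F,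
    g * xGL (Multiplicative.ofAdd c) * g⁻¹ = xGL (Multiplicative.ofAdd (t * c)) := by
  refine ⟨Matrix.GeneralLinearGroup.mkOfDetNeZero !![t, 0; 0, 1]
    (by rw [Matrix.det_fin_two_of]; simpa using ht), fun c => ?_⟩
  rw [mul_inv_eq_iff_eq_mul]
  apply Units.ext
  rw [Units.val_mul, Units.val_mul, xGL_coe, xGL_coe]
  show (!![t, 0; 0, 1] : Matrix (Fin 2) (Fin 2) F) * tt c = tt (t * c) * !![t, 0; 0, 1]
  ext i j
  fin_cases i <;> fin_cases j <;> simp [tt, Matrix.mul_apply, Fin.sum_univ_two]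

end Cfsg.Agent.Lib.Helper1SLgldata
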