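import Mathlib
import Cfsg.Agent.Lib.Helper20SNDefs

set_option autoImplicit false

/-! piece `amb` of project 73: transfer of `solv_struct_top` (hypothesis at the end, at the type
`↥L`) to the ambient group. -/

namespace Cfsg.Agent.Lib.Helper1SNAmb

open Cfsg.Agent.Lib.Helper20SNDefs

theorem solv_struct {G : Type*} [Group G] [Finite G] (hP : PP G) (L : Subgroup G)
    (hs : Group.IsSolvable L) (hna : ¬ Ab L)
    (top : PP L → ¬ Ab (⊤ : Subgroup L) →
      (∃ p : ℕ, p.Prime ∧ IsPGroup p L) ∨ ∃ (A : Subgroup L) (r : ℕ) (y : L), TypeII ⊤ A r y) :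
    (∃ p : ℕ, p.Prime ∧ IsPGroup p L) ∨ ∃ (A : Subgroup G) (r : ℕ) (y : G), TypeII L A r y := by
  have hPL := hP.subgroup L
  have hna' : ¬ Ab (⊤ : Subgroup L) := fun h => hna (fun a ha b hb =>
    congrArg Subtype.val (h ⟨a, ha⟩ trivial ⟨b, hb⟩ trivial))
  rcases top hPL hna' with h | ⟨A, r, y, hT⟩
  · left; exact h
  · right
    refine ⟨A.map L.subtype, r, (y : G), ⟨hT.prime, Subgroup.map_subtype_le A, y.2, ?_,
      hT.ab.map L.subtype, ?_, ?_, ?_, ?_, ?_⟩⟩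
    · rintro g hg _ ⟨a, ha, rfl⟩
      exact ⟨⟨g, hg⟩ * a * ⟨g, hg⟩⁻¹, hT.norm ⟨g, hg⟩ trivial a ha, by simp⟩
    · have : Nat.card (A.map L.subtype) = Nat.card A :=
        (Nat.card_congr (A.equivMapOfInjective L.subtype L.subtype_injective).toEquiv).symm
      rw [this]; exact hT.cop
    · obtain ⟨k, hk⟩ := hT.ord
      exact ⟨k, by rw [Subgroup.orderOf_coe, hk]⟩
    · intro g hg
      obtain ⟨a, ha, i, hi⟩ := hT.gen ⟨g, hg⟩ trivial
      exact ⟨a, ⟨a, ha, rfl⟩, i, by simpa using congrArg Subtype.val hi⟩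
    · rintro _ ⟨a, ha, rfl⟩ h
      have := hT.fpf a ha (Subtype.ext h)
      simp [this]
    · intro g hg
      exact congrArg Subtype.val (hT.cen ⟨g, hg⟩ trivial)

end Cfsg.Agent.Lib.Helper1SNAmb
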