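import Mathlib
import Cfsg.Agent.Lib.Helper20SNDefs

set_option autoImplicit false

/-! piece `maxn` of project 73: a simple quotient. -/

namespace Cfsg.Agent.Lib.Helper1SNMaxn

theorem exists_max_normal {G : Type*} [Group G] [Finite G] [Nontrivial G] :
    ∃ M : Subgroup G, ∃ _ : M.Normal, IsSimpleGroup (G ⧸ M) := by
  let s : Set (Subgroup G) := {M | M.Normal ∧ M ≠ ⊤}
  have hs : s.Nonempty := ⟨⊥, inferInstance, bot_ne_top⟩
  obtain ⟨M, hM⟩ := (Set.toFinite s).exists_maximal hs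
  obtain ⟨hMn, hMtop⟩ := hM.prop
  refine ⟨M, hMn, ?_⟩
  obtain ⟨g, hg⟩ : ∃ g : G, g ∉ M := by
    by_contra h
    push Not at h
    exact hMtop (eq_top_iff.2 fun x _ => h x)
  have hnt : Nontrivial (G ⧸ M) :=
    ⟨⟨(g : G ⧸ M), 1, fun h => hg ((QuotientGroup.eq_one_iff g).mp h)⟩⟩
  refine { hnt with eq_bot_or_eq_top_of_normal := ?_ }
  intro H hH
  have hcn : (H.comap (QuotientGroup.mk' M)).Normal := hH.comap _
  have hle : M ≤ H.comap (QuotientGroup.mk' M) := by
    intro x hx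
    rw [Subgroup.mem_comap]
    have : QuotientGroup.mk' M x = 1 := (QuotientGroup.eq_one_iff x).mpr hx
    rw [this]; exact H.one_mem
  by_cases htop : H.comap (QuotientGroup.mk' M) = ⊤
  · right
    rw [eq_top_iff]
    intro x _
    obtain ⟨x, rfl⟩ := QuotientGroup.mk'_surjective M x
    have : x ∈ H.comap (QuotientGroup.mk' M) := htop ▸ Subgroup.mem_top x
    exact this
  · left
    have h1 : H.comap (QuotientGroup.mk' M) ≤ M := hM.le_of_ge ⟨hcn, htop⟩ hle
    rw [eq_bot_iff]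
    intro x hx
    obtain ⟨x, rfl⟩ := QuotientGroup.mk'_surjective M x
    rw [Subgroup.mem_bot]
    exact (QuotientGroup.eq_one_iff x).mpr (h1 hx)

end Cfsg.Agent.Lib.Helper1SNMaxn
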