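import Mathlib
import Cfsg.Agent.Lib.Helper20SNDefs
import Cfsg.Agent.Lib.Helper11Wielandt

set_option autoImplicit false

/-! piece `pre` of project 73: the set-up for solvable `PP`-groups. -/

namespace Cfsg.Agent.Lib.Helper1SNPre

open Cfsg.Agent.Lib.Helper20SNDefs

theorem exists_pre {G : Type*} [Group G] [Finite G] [Group.IsSolvable G] (hP : PP G)
    (hna : ¬ Ab (⊤ : Subgroup G)) : ∃ (K A : Subgroup G) (r : ℕ) (y : G), Pre K A r y := by
  have hnt : Nontrivial G := by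
    by_contra h
    rw [not_nontrivial_iff_subsingleton] at h
    exact hna (fun a _ b _ => Subsingleton.elim _ _)
  obtain ⟨K, hKn, hKi⟩ := Cfsg.Agent.Lib.Helper11Wielandt.exists_normal_prime_index G
  have hKtop : K ≠ ⊤ := by
    rintro rfl
    rw [Subgroup.index_top] at hKi
    exact Nat.not_prime_one hKi
  have hKab : Ab K := hP.normal_ab hKn hKtop
  obtain ⟨g, hg⟩ : ∃ g : G, g ∉ K := by
    by_contra h
    push Not at h
    exact hKtop (eq_top_iff.2 fun x _ => h x)
  set r := K.index with hr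
  obtain ⟨k, m, hm, hkm⟩ := Nat.exists_eq_pow_mul_and_not_dvd (orderOf_pos g).ne' r hKi.ne_one
  have hm0 : m ≠ 0 := by
    rintro rfl
    exact hm (dvd_zero r)
  have hord : orderOf (g ^ m) = r ^ k := by
    rw [orderOf_pow_of_dvd hm0 ⟨r ^ k, by rw [hkm, mul_comm]⟩, hkm,
      Nat.mul_div_cancel _ (Nat.pos_of_ne_zero hm0)]
  have hy : g ^ m ∉ K := by
    intro h
    apply hg
    have h1 : (g : G ⧸ K) ^ m = 1 := by
      rw [← QuotientGroup.mk_pow]; exact (QuotientGroup.eq_one_iff _).mpr h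
    have h2 : (g : G ⧸ K) ^ r = 1 := by
      rw [← QuotientGroup.mk_pow]; exact (QuotientGroup.eq_one_iff _).mpr (K.pow_index_mem g)
    have h3 : orderOf (g : G ⧸ K) ∣ Nat.gcd m r :=
      Nat.dvd_gcd (orderOf_dvd_of_pow_eq_one h1) (orderOf_dvd_of_pow_eq_one h2)
    have h4 : Nat.gcd m r = 1 := by
      rw [Nat.gcd_comm]
      exact (Nat.Prime.coprime_iff_not_dvd hKi).mpr hm
    rw [h4, Nat.dvd_one, orderOf_eq_one_iff] at h3
    exact (QuotientGroup.eq_one_iff g).mp h3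
  let A : Subgroup G :=
    { carrier := {a | a ∈ K ∧ (orderOf a).Coprime r}
      one_mem' := ⟨K.one_mem, by simp⟩
      mul_mem' := by
        rintro a b ⟨ha, ha'⟩ ⟨hb, hb'⟩
        refine ⟨K.mul_mem ha hb, ?_⟩
        have hc : Commute a b := hKab a ha b hb
        exact (Nat.Coprime.mul_left ha' hb').coprime_dvd_left hc.orderOf_mul_dvd_mul_orderOf
      inv_mem' := by
        rintro a ⟨ha, ha'⟩
        exact ⟨K.inv_mem ha, by rw [orderOf_inv]; exact ha'⟩ }
  exact ⟨K, A, r, g ^ m, ⟨hKi, hKn, hKab, rfl, hy, ⟨k, hord⟩, fun a => Iff.rfl⟩⟩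

end Cfsg.Agent.Lib.Helper1SNPre
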