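import Mathlib
import Cfsg.Agent.Lib.Helper20SNDefs
import Cfsg.Agent.S0071

set_option autoImplicit false

/-! piece `syl` of project 73: the Sylow subgroups of a minimal simple `PP`-group are abelian. -/

namespace Cfsg.Agent.Lib.Helper1SNSyl

open Cfsg.Agent.Lib.Helper20SNDefs

variable {G : Type*} [Group G] [Finite G]

theorem exists_normalizing {p : ℕ} [Fact p.Prime] {Q R : Subgroup G} (hR : IsPGroup p R)
    (hQR : Q < R) : ∃ w ∈ R, w ∉ Q ∧ ∀ u ∈ Q, w * u * w⁻¹ ∈ Q := by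
  haveI : Group.IsNilpotent R := hR.isNilpotent
  have hnc : NormalizerCondition R := normalizerCondition_of_isNilpotent
  have hlt : Q.subgroupOf R < ⊤ := by
    rw [lt_top_iff_ne_top]
    intro h
    rw [Subgroup.subgroupOf_eq_top] at h
    exact absurd h (not_le_of_gt hQR)
  obtain ⟨w, hw1, hw2⟩ := SetLike.exists_of_lt (hnc _ hlt)
  refine ⟨w, w.2, fun h => hw2 (Subgroup.mem_subgroupOf.mpr h), fun u hu => ?_⟩
  have := (Subgroup.mem_normalizer_iff.mp hw1 ⟨u, hQR.le hu⟩).mp (Subgroup.mem_subgroupOf.mpr hu)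
  exact Subgroup.mem_subgroupOf.mp this

theorem solvable_of (hIH : ∀ L : Subgroup G, L ≠ ⊤ → ¬ Group.IsSolvable L → IsSimpleGroup L)
    {L Q : Subgroup G} (hL : L ≠ ⊤) (hQL : Q ≤ L) (hn : ∀ l ∈ L, ∀ u ∈ Q, l * u * l⁻¹ ∈ Q)
    (hQ : Q ≠ ⊥) {w : G} (hw : w ∈ L) (hwQ : w ∉ Q) : Group.IsSolvable L := by
  by_contra hs
  haveI := hIH L hL hs
  have hN : (Q.subgroupOf L).Normal := ⟨fun u hu l => by
    rw [Subgroup.mem_subgroupOf] at hu ⊢
    exact hn l l.2 u hu⟩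
  rcases hN.eq_bot_or_eq_top with h | h
  · rw [Subgroup.subgroupOf_eq_bot] at h
    have h2 := h.eq_bot
    rw [inf_eq_left.mpr hQL] at h2
    exact hQ h2
  · rw [Subgroup.subgroupOf_eq_top] at h
    exact hwQ (h hw)

theorem normalizer_ne_top [IsSimpleGroup G] {Q : Subgroup G} (h0 : Q ≠ ⊥) (h1 : Q ≠ ⊤) :
    Subgroup.normalizer (Q : Set G) ≠ ⊤ := by
  intro h
  have hN : Q.Normal :=
    ⟨fun u hu g => (Subgroup.mem_normalizer_iff.mp (h ▸ Subgroup.mem_top g) u).mp hu⟩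
  rcases hN.eq_bot_or_eq_top with h | h
  exacts [h0 h, h1 h]

omit [Finite G] in
theorem eq_one_of_pow_coprime {p : ℕ} {g : G} {n : ℕ} (h1 : g ^ p ^ n = 1)
    (h2 : (orderOf g).Coprime p) : g = 1 := by
  have h3 : orderOf g ∣ p ^ n := orderOf_dvd_of_pow_eq_one h1
  have h4 : (orderOf g).Coprime (p ^ n) := h2.pow_right n
  exact orderOf_eq_one_iff.mp (Nat.Coprime.eq_one_of_dvd h4 h3)

omit [Finite G] in
theorem coprime_of_pow {p r : ℕ} (hp : p.Prime) (hr : r.Prime) (hrp : r ≠ p) {u : G}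
    (h : ∃ n : ℕ, u ^ p ^ n = 1) : (orderOf u).Coprime r := by
  obtain ⟨n, hn⟩ := h
  have h3 : orderOf u ∣ p ^ n := orderOf_dvd_of_pow_eq_one hn
  have h4 : (p ^ n).Coprime r := ((Nat.coprime_primes hp hr).mpr (Ne.symm hrp)).pow_left n
  exact h4.coprime_dvd_left h3

omit [Finite G] in
theorem not_pgroup {p : ℕ} (hp : p.Prime) {M : Subgroup G} {u g : G} (hu : u ∈ M) (hu1 : u ≠ 1)
    (hup : ∃ n : ℕ, u ^ p ^ n = 1) (hg : g ∈ M) (hg1 : g ≠ 1) (hgp : (orderOf g).Coprime p) :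
    ¬ ∃ r : ℕ, r.Prime ∧ IsPGroup r M := by
  rintro ⟨r, hr, hM⟩
  by_cases hrp : r = p
  · subst hrp
    obtain ⟨m, hm⟩ := hM ⟨g, hg⟩
    have hm' : g ^ r ^ m = 1 := by simpa using congrArg Subtype.val hm
    exact hg1 (eq_one_of_pow_coprime hm' hgp)
  · obtain ⟨m, hm⟩ := hM ⟨u, hu⟩
    have hm' : u ^ r ^ m = 1 := by simpa using congrArg Subtype.val hm
    exact hu1 (eq_one_of_pow_coprime hm' (coprime_of_pow hp hr hrp hup))

omit [Finite G] in
/-- the `p`-elements of an abelian subgroup. -/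
def pPart (p : ℕ) (A : Subgroup G) (hA : Ab A) : Subgroup G where
  carrier := {a | a ∈ A ∧ ∃ n : ℕ, a ^ p ^ n = 1}
  one_mem' := ⟨A.one_mem, 0, by simp⟩
  mul_mem' := by
    rintro a b ⟨ha, n, hn⟩ ⟨hb, m, hm⟩
    refine ⟨A.mul_mem ha hb, n + m, ?_⟩
    have hc : Commute a b := hA a ha b hb
    rw [hc.mul_pow, pow_add, pow_mul, hn, one_pow, one_mul, mul_comm (p ^ n), pow_mul, hm, one_pow]
  inv_mem' := by
    rintro a ⟨ha, n, hn⟩
    exact ⟨A.inv_mem ha, n, by rw [inv_pow, hn, inv_one]⟩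

theorem core [IsSimpleGroup G] (hP : PP G)
    (hIH : ∀ L : Subgroup G, L ≠ ⊤ → ¬ Group.IsSolvable L → IsSimpleGroup L)
    (p : ℕ) [Fact p.Prime] (hnab : ∀ P : Sylow p G, ¬ Ab (P : Subgroup G))
    (solv_struct : ∀ L : Subgroup G, Group.IsSolvable L → ¬ Ab L →
      (∃ p : ℕ, p.Prime ∧ IsPGroup p L) ∨ ∃ (A : Subgroup G) (r : ℕ) (y : G), TypeII L A r y)
    (t1 : ∀ {L A : Subgroup G} {r : ℕ} {y : G}, TypeII L A r y → ∀ {u : G}, u ∈ L →
      (orderOf u).Coprime r → u ∈ A)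
    (t2 : ∀ {L A : Subgroup G} {r : ℕ} {y : G}, TypeII L A r y → ¬ Ab L → ∀ {Q : Subgroup G},
      Q ≤ L → IsPGroup r Q → (∀ g ∈ L, ∀ u ∈ Q, g * u * g⁻¹ ∈ Q) →
      ∀ u ∈ Q, ∀ g ∈ L, g * u = u * g)
    (P : Sylow p G) (Q : Subgroup G) (hQP : Q ≤ P) (g : G)
    (hg : g ∈ Subgroup.normalizer (Q : Set G)) (hgp : (orderOf g).Coprime p) :
    ∀ u ∈ Q, g * u = u * g := by
  have hpp : p.Prime := Fact.out
  by_contra hcon
  have hQ0 : Q ≠ ⊥ := by
    rintro rfl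
    apply hcon
    intro u hu
    rw [Subgroup.mem_bot.mp hu]; simp
  have hg1 : g ≠ 1 := by
    rintro rfl
    exact hcon (by simp)
  have hPp : IsPGroup p P := P.2
  have hQp : ∀ u ∈ Q, ∃ n : ℕ, u ^ p ^ n = 1 := fun u hu => by
    obtain ⟨n, hn⟩ := hPp ⟨u, hQP hu⟩
    exact ⟨n, by simpa using congrArg Subtype.val hn⟩
  have hQpg : IsPGroup p Q := fun u => by
    obtain ⟨n, hn⟩ := hQp u u.2
    exact ⟨n, Subtype.ext (by simpa using hn)⟩
  have hQP' : Q ≠ P := by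
    intro h
    subst h
    have h1 : g ∈ (P : Subgroup G) := hP _ (hnab P) hg
    obtain ⟨n, hn⟩ := hQp g h1
    exact hg1 (eq_one_of_pow_coprime hn hgp)
  have hlt : Q < P := lt_of_le_of_ne hQP hQP'
  obtain ⟨w, hwP, hwQ, hwn⟩ := exists_normalizing hPp hlt
  set L := Subgroup.normalizer (Q : Set G) with hLdef
  have hQL : Q ≤ L := Subgroup.le_normalizer
  have hLn : ∀ l ∈ L, ∀ u ∈ Q, l * u * l⁻¹ ∈ Q :=
    fun l hl u hu => (Subgroup.mem_normalizer_iff.mp hl u).mp hu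
  have hwL : w ∈ L := mem_normalizer_of_conj hwn
  have hQtop : Q ≠ ⊤ := by
    rintro rfl
    exact hwQ (Subgroup.mem_top w)
  have hLtop : L ≠ ⊤ := normalizer_ne_top hQ0 hQtop
  have hLna : ¬ Ab L := fun h => hcon (fun u hu => h g hg u (hQL hu))
  have hLs : Group.IsSolvable L := solvable_of hIH hLtop hQL hLn hQ0 hwL hwQ
  obtain ⟨u0, hu0Q, hu01⟩ : ∃ u0 ∈ Q, u0 ≠ 1 := by
    by_contra h
    push Not at h
    exact hQ0 ((Subgroup.eq_bot_iff_forall Q).mpr h)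
  rcases solv_struct L hLs hLna with hpg | ⟨A, r, y, hT⟩
  · exact not_pgroup hpp (hQL hu0Q) hu01 (hQp u0 hu0Q) hg hg1 hgp hpg
  · by_cases hrp : r = p
    · have h1 := t2 hT hLna hQL (hrp ▸ hQpg) hLn
      exact hcon (fun u hu => h1 u hu g hg)
    · set P0 : Subgroup G := pPart p A hT.ab with hP0def
      have hP0A : P0 ≤ A := fun a ha => ha.1
      have hP0ab : Ab P0 := hT.ab.mono hP0A
      have hP0p : IsPGroup p P0 := fun a => by
        obtain ⟨n, hn⟩ := a.2.2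
        exact ⟨n, Subtype.ext (by simpa using hn)⟩
      have hLP0 : ∀ u ∈ L, (∃ n : ℕ, u ^ p ^ n = 1) → u ∈ P0 :=
        fun u hu hn => ⟨t1 hT hu (coprime_of_pow hpp hT.prime hrp hn), hn⟩
      have hQP0 : Q ≤ P0 := fun u hu => hLP0 u (hQL hu) (hQp u hu)
      have hLnP0 : ∀ l ∈ L, ∀ a ∈ P0, l * a * l⁻¹ ∈ P0 := by
        rintro l hl a ⟨ha, n, hn⟩
        exact ⟨hT.norm l hl a ha, n, by rw [conj_pow, hn]; simp⟩
      obtain ⟨P1, hP1⟩ := hP0p.exists_le_sylow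
      have hlt1 : P0 < P1 := lt_of_le_of_ne hP1 (fun h => hnab P1 (h ▸ hP0ab))
      obtain ⟨w', hw'P, hw'P0, hw'n⟩ := exists_normalizing P1.2 hlt1
      set L0 := Subgroup.normalizer (P0 : Set G) with hL0def
      have hLL0 : L ≤ L0 := fun l hl => mem_normalizer_of_conj (hLnP0 l hl)
      have hP00 : P0 ≠ ⊥ := ne_bot_of_le_ne_bot hQ0 hQP0
      have hP0top : P0 ≠ ⊤ := by
        intro h
        exact hw'P0 (h ▸ Subgroup.mem_top w')
      have hL0top : L0 ≠ ⊤ := normalizer_ne_top hP00 hP0top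
      have hL0na : ¬ Ab L0 := fun h => hLna (h.mono hLL0)
      have hL0n : ∀ l ∈ L0, ∀ u ∈ P0, l * u * l⁻¹ ∈ P0 :=
        fun l hl u hu => (Subgroup.mem_normalizer_iff.mp hl u).mp hu
      have hw'L0 : w' ∈ L0 := mem_normalizer_of_conj hw'n
      have hP0L0 : P0 ≤ L0 := Subgroup.le_normalizer
      have hL0s : Group.IsSolvable L0 := solvable_of hIH hL0top hP0L0 hL0n hP00 hw'L0 hw'P0
      rcases solv_struct L0 hL0s hL0na with hpg | ⟨A0, r0, y0, hT0⟩
      · exact not_pgroup hpp (hLL0 (hQL hu0Q)) hu01 (hQp u0 hu0Q) (hLL0 hg) hg1 hgp hpg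
      · by_cases hr0 : r0 = p
        · have h1 := t2 hT0 hL0na hP0L0 (hr0 ▸ hP0p) hL0n
          exact hcon (fun u hu => h1 u (hQP0 hu) g (hLL0 hg))
        · have hw'p : ∃ n : ℕ, w' ^ p ^ n = 1 := by
            obtain ⟨n, hn⟩ := P1.2 ⟨w', hw'P⟩
            exact ⟨n, by simpa using congrArg Subtype.val hn⟩
          have hw'A0 : w' ∈ A0 := t1 hT0 hw'L0 (coprime_of_pow hpp hT0.prime hr0 hw'p)
          have hQA0 : ∀ u ∈ Q, u ∈ A0 := fun u hu =>
            t1 hT0 (hLL0 (hQL hu)) (coprime_of_pow hpp hT0.prime hr0 (hQp u hu))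
          have hw'L : w' ∈ L := mem_normalizer_of_conj (fun u hu => by
            rw [hT0.ab w' hw'A0 u (hQA0 u hu)]
            simpa using hu)
          exact hw'P0 (hLP0 w' hw'L hw'p)

/-- piece `syl` : Sylow subgroups are abelian (Frobenius' normal p-complement theorem S0071);
the pieces `amb`, `t1`, `t2` are taken as hypotheses at the end. -/
theorem sylow_ab [IsSimpleGroup G] (hP : PP G)
    (hna : ¬ Ab (⊤ : Subgroup G))
    (hIH : ∀ L : Subgroup G, L ≠ ⊤ → ¬ Group.IsSolvable L → IsSimpleGroup L)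
    (p : ℕ) [Fact p.Prime] (P : Sylow p G)
    (solv_struct : ∀ L : Subgroup G, Group.IsSolvable L → ¬ Ab L →
      (∃ p : ℕ, p.Prime ∧ IsPGroup p L) ∨ ∃ (A : Subgroup G) (r : ℕ) (y : G), TypeII L A r y)
    (t1 : ∀ {L A : Subgroup G} {r : ℕ} {y : G}, TypeII L A r y → ∀ {u : G}, u ∈ L →
      (orderOf u).Coprime r → u ∈ A)
    (t2 : ∀ {L A : Subgroup G} {r : ℕ} {y : G}, TypeII L A r y → ¬ Ab L → ∀ {Q : Subgroup G},
      Q ≤ L → IsPGroup r Q → (∀ g ∈ L, ∀ u ∈ Q, g * u * g⁻¹ ∈ Q) →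
      ∀ u ∈ Q, ∀ g ∈ L, g * u = u * g) :
    Ab (P : Subgroup G) := by
  by_contra hnab
  have hall : ∀ P1 : Sylow p G, ¬ Ab (P1 : Subgroup G) := by
    intro P1 h1
    obtain ⟨g, rfl⟩ := MulAction.exists_smul_eq G P P1
    apply hnab
    intro a ha b hb
    have hmem : ∀ x ∈ (P : Subgroup G), g * x * g⁻¹ ∈ ((g • P : Sylow p G) : Subgroup G) := by
      intro x hx
      rw [Sylow.coe_subgroup_smul, Subgroup.mem_pointwise_smul_iff_inv_smul_mem]
      simpa [MulAut.smul_def, mul_assoc] using hx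
    have h2 := h1 _ (hmem a ha) _ (hmem b hb)
    have h3 : g * (a * b) * g⁻¹ = g * (b * a) * g⁻¹ := by
      calc g * (a * b) * g⁻¹ = (g * a * g⁻¹) * (g * b * g⁻¹) := by group
        _ = (g * b * g⁻¹) * (g * a * g⁻¹) := h2
        _ = g * (b * a) * g⁻¹ := by group
    exact mul_left_cancel (mul_right_cancel h3)
  obtain ⟨N, hN, hc⟩ := (Cfsg.Agent.S0071.result P).mpr (fun Q hQ g hg hgp => by
    rw [Subgroup.mem_centralizer_iff]
    intro u hu
    exact (core hP hIH p hall solv_struct t1 t2 P Q hQ g hg hgp u hu).symm)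
  rcases hN.eq_bot_or_eq_top with rfl | rfl
  · have hPtop : (P : Subgroup G) = ⊤ := Subgroup.isComplement'_bot_left.mp hc
    have hGp : IsPGroup p G := by
      intro x
      obtain ⟨n, hn⟩ := P.2 ⟨x, hPtop ▸ Subgroup.mem_top x⟩
      exact ⟨n, by simpa using congrArg Subtype.val hn⟩
    haveI : Nontrivial (Subgroup.center G) := hGp.center_nontrivial
    have hcn : (Subgroup.center G).Normal := inferInstance
    rcases hcn.eq_bot_or_eq_top with h | h
    · exact (Subgroup.nontrivial_iff_ne_bot _).mp ‹_› h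
    · apply hna
      intro a _ b _
      have : a ∈ Subgroup.center G := h ▸ Subgroup.mem_top a
      exact ((Subgroup.mem_center_iff.mp this) b).symm
  · have hPbot : (P : Subgroup G) = ⊥ := Subgroup.isComplement'_top_left.mp hc
    apply hnab
    intro a ha b hb
    rw [hPbot, Subgroup.mem_bot] at ha hb
    rw [ha, hb]

end Cfsg.Agent.Lib.Helper1SNSyl
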