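import Mathlib
import Cfsg.Agent.Lib.Helper20SNDefs

set_option autoImplicit false

/-! piece `top` of project 73: structure of a solvable non-abelian `PP`-group (assembly of the
pieces `pre`, `pgrp`, `fpf`, `gen`, which are hypotheses at the end). -/

namespace Cfsg.Agent.Lib.Helper1SNTop

open Cfsg.Agent.Lib.Helper20SNDefs

theorem solv_struct_top {G : Type*} [Group G] [Finite G] [Group.IsSolvable G] (hP : PP G)
    (hna : ¬ Ab (⊤ : Subgroup G))
    (pre : ∃ (K A : Subgroup G) (r : ℕ) (y : G), Pre K A r y)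
    (pgrp : ∀ {K A : Subgroup G} {r : ℕ} {y : G}, Pre K A r y → (∀ a ∈ A, a * y = y * a) →
      IsPGroup r G)
    (fpf : ∀ {K A : Subgroup G} {r : ℕ} {y : G}, Pre K A r y → (¬ ∀ a ∈ A, a * y = y * a) →
      ∀ a ∈ A, a * y = y * a → a = 1)
    (gen : ∀ {K A : Subgroup G} {r : ℕ} {y : G}, Pre K A r y → A ≠ ⊥ →
      (∀ a ∈ A, a * y = y * a → a = 1) → ∀ g : G, ∃ a ∈ A, ∃ i : ℕ, g = a * y ^ i) :
    (∃ p : ℕ, p.Prime ∧ IsPGroup p G) ∨ ∃ (A : Subgroup G) (r : ℕ) (y : G), TypeII ⊤ A r y := by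
  obtain ⟨K, A, r, y, h⟩ := pre
  by_cases hc : ∀ a ∈ A, a * y = y * a
  · left
    exact ⟨r, h.prime, pgrp h hc⟩
  · right
    have hf := fpf h hc
    have hA : A ≠ ⊥ := by
      rintro rfl
      apply hc
      intro a ha
      rw [Subgroup.mem_bot.mp ha]; simp
    have hg := gen h hA hf
    have hAK : A ≤ K := fun a ha => ((h.mem_A a).mp ha).1
    have hKn : K.Normal := h.normal
    have hyr : y ^ r ∈ K := by
      have := Subgroup.pow_index_mem K y
      rwa [h.index] at this
    refine ⟨A, r, y, ⟨h.prime, le_top, Subgroup.mem_top y, ?_, h.ab.mono hAK, ?_, h.ord,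
      fun g _ => hg g, hf, ?_⟩⟩
    · intro g _ a ha
      obtain ⟨h1, h2⟩ := (h.mem_A a).mp ha
      refine (h.mem_A _).mpr ⟨hKn.conj_mem a h1 g, ?_⟩
      have : orderOf (g * a * g⁻¹) = orderOf a := by
        have := orderOf_injective (MulAut.conj g).toMonoidHom (MulAut.conj g).injective a
        simpa using this
      rw [this]; exact h2
    · rw [Nat.coprime_comm, Nat.Prime.coprime_iff_not_dvd h.prime]
      intro hdvd
      haveI : Fact r.Prime := ⟨h.prime⟩
      obtain ⟨a, ha⟩ := exists_prime_orderOf_dvd_card' (G := A) r hdvd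
      have h1 : orderOf (a : G) = r := by rw [Subgroup.orderOf_coe, ha]
      have h2 := ((h.mem_A (a : G)).mp a.2).2
      rw [h1, Nat.coprime_self] at h2
      exact h.prime.one_lt.ne' h2
    · intro g _
      obtain ⟨a, ha, i, rfl⟩ := hg g
      have h1 : a * y ^ r = y ^ r * a := h.ab a (hAK ha) _ hyr
      calc a * y ^ i * y ^ r = a * y ^ r * y ^ i := by
            rw [mul_assoc, mul_assoc, ← pow_add, ← pow_add, add_comm]
        _ = y ^ r * (a * y ^ i) := by rw [h1, mul_assoc]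

end Cfsg.Agent.Lib.Helper1SNTop
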