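import Mathlib

set_option autoImplicit false

/-! Project 243, piece `cabel` (pure group theory). -/

namespace Cfsg.Agent.Lib.Helper1SpCabel

theorem prod_map_mul' {B G : Type*} [Group G] (f g : B → G) (hc : ∀ b b', Commute (g b) (f b')) :
    ∀ l : List B, (l.map fun b => f b * g b).prod = (l.map f).prod * (l.map g).prod
  | [] => by simp
  | a :: l => by
    have h1 : Commute (g a) (l.map f).prod := by
      apply Commute.list_prod_right
      intro x hx
      obtain ⟨b, -, rfl⟩ := List.mem_map.mp hx
      exact hc a b
    simp only [List.map_cons, List.prod_cons, prod_map_mul' f g hc l]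
    calc f a * g a * ((l.map f).prod * (l.map g).prod)
        = f a * (g a * (l.map f).prod) * (l.map g).prod := by simp only [mul_assoc]
      _ = f a * ((l.map f).prod * g a) * (l.map g).prod := by rw [h1.eq]
      _ = f a * (l.map f).prod * (g a * (l.map g).prod) := by simp only [mul_assoc]

-- piece `cabel`  (pure group theory)
theorem abel_nf {B : Type*} [Fintype B] {R : Type*} [AddGroup R] {G : Type*} [Group G] (φ : B → R → G)
    (hadd : ∀ b s t, φ b (s + t) = φ b s * φ b t) (hc : ∀ b b' s t, Commute (φ b s) (φ b' t))
    (q : G) (hq : q ∈ Subgroup.closure {g | ∃ b t, g = φ b t}) :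
    ∃ (l : List B) (c : B → R), l.Nodup ∧ q = (l.map fun b => φ b (c b)).prod := by
  classical
  have h0 : ∀ b, φ b 0 = 1 := by
    intro b
    have := hadd b 0 0
    rw [add_zero] at this
    exact (mul_eq_left.mp this.symm)
  refine ⟨Finset.univ.toList, ?_⟩
  suffices h : ∃ c : B → R, q = ((Finset.univ.toList : List B).map fun b => φ b (c b)).prod by
    obtain ⟨c, hc'⟩ := h
    exact ⟨c, Finset.nodup_toList _, hc'⟩
  have hmul : ∀ (c c' : B → R) (l : List B), (l.map fun b => φ b ((c + c') b)).prod
      = (l.map fun b => φ b (c b)).prod * (l.map fun b => φ b (c' b)).prod := by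
    intro c c' l
    simp only [Pi.add_apply, hadd]
    exact prod_map_mul' _ _ (fun b b' => hc _ _ _ _) l
  have hone : ∀ l : List B, (l.map fun b => φ b ((0 : B → R) b)).prod = 1 := by
    intro l
    apply List.prod_eq_one
    intro x hx
    obtain ⟨b, -, rfl⟩ := List.mem_map.mp hx
    exact h0 b
  have hsingle : ∀ (b : B) (t : R) (l : List B), l.Nodup → b ∈ l →
      (l.map fun b' => φ b' ((Pi.single b t : B → R) b')).prod = φ b t := by
    intro b t l
    induction l with
    | nil => intro _ h; simp at h
    | cons a l ih =>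
      intro hnd hb
      rw [List.nodup_cons] at hnd
      simp only [List.map_cons, List.prod_cons]
      by_cases hab : a = b
      · subst hab
        rw [Pi.single_eq_same]
        have : (l.map fun b' => φ b' ((Pi.single a t : B → R) b')).prod = 1 := by
          apply List.prod_eq_one
          intro x hx
          obtain ⟨b', hb', rfl⟩ := List.mem_map.mp hx
          have hne : b' ≠ a := fun h => hnd.1 (h ▸ hb')
          rw [Pi.single_eq_of_ne hne, h0]
        rw [this, mul_one]
      · rw [Pi.single_eq_of_ne hab, h0, one_mul]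
        exact ih hnd.2 ((List.mem_cons.mp hb).resolve_left (fun h => hab h.symm))
  induction hq using Subgroup.closure_induction with
  | mem x hx =>
    obtain ⟨b, t, rfl⟩ := hx
    exact ⟨Pi.single b t, (hsingle b t _ (Finset.nodup_toList _) (by simp)).symm⟩
  | one => exact ⟨0, (hone _).symm⟩
  | mul x y _ _ hx hy =>
    obtain ⟨c, rfl⟩ := hx
    obtain ⟨c', rfl⟩ := hy
    exact ⟨c + c', (hmul c c' _).symm⟩
  | inv x _ hx =>
    obtain ⟨c, rfl⟩ := hx
    refine ⟨-c, ?_⟩
    rw [inv_eq_iff_mul_eq_one, ← hmul, add_neg_cancel, hone]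

end Cfsg.Agent.Lib.Helper1SpCabel
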