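import Cfsg.Agent.Lib.Helper43SpDefs

set_option autoImplicit false
set_option linter.unusedSimpArgs false

/-! Project 243, piece `xval`: the matrix of `X a b t` (and a small toolkit on signed indices). -/

namespace Cfsg.Agent.Lib.Helper84SpXval

open Matrix Cfsg.Agent.Lib.Helper43St Cfsg.Agent.Lib.Helper43Sp

variable {m : ℕ} {F : Type*} [Field F]

theorem ng_ng (a : I m) : ng (ng a) = a := by
  cases a <;> rfl

theorem ng_ne (a : I m) : ng a ≠ a := by
  cases a <;> simp [ng]

theorem ne_ng (a : I m) : a ≠ ng a := fun h => ng_ne a h.symm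

theorem ng_inj {a b : I m} : ng a = ng b ↔ a = b :=
  ⟨fun h => by rw [← ng_ng a, h, ng_ng], fun h => by rw [h]⟩

theorem ng_eq_iff {a b : I m} : ng a = b ↔ a = ng b :=
  ⟨fun h => by rw [← h, ng_ng], fun h => by rw [h, ng_ng]⟩

theorem ab_ng (a : I m) : ab (ng a) = ab a := by
  cases a <;> rfl

theorem sg_ng (a : I m) : sg F (ng a) = - sg F a := by
  cases a <;> simp [ng, sg]

theorem sg_mul_self (a : I m) : sg F a * sg F a = 1 := by
  cases a <;> simp [sg]

theorem sg_ne_zero (a : I m) : sg F a ≠ 0 := by
  cases a <;> simp [sg]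

theorem ne_of_ab {a b : I m} (h : ab a ≠ ab b) : a ≠ b := fun e => h (by rw [e])

theorem ne_ng_of_ab {a b : I m} (h : ab a ≠ ab b) : a ≠ ng b := fun e => h (by rw [e, ab_ng])

theorem ng_ne_of_ab {a b : I m} (h : ab a ≠ ab b) : ng a ≠ b := fun e => h (by rw [← e, ab_ng])

theorem J_apply (a b : I m) : J (Fin m) F a b = if b = ng a then - sg F a else 0 := by
  rcases a with i | i <;> rcases b with j | j <;>
    simp [J, ng, sg, Matrix.one_apply, eq_comm, apply_ite]

theorem single_mul_J (a b : I m) (t : F) :
    Matrix.single a b t * J (Fin m) F = Matrix.single a (ng b) (-(sg F b * t)) := by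
  ext c d
  rw [Matrix.mul_apply, Finset.sum_eq_single b]
  · rw [J_apply]
    by_cases h1 : a = c <;> by_cases h2 : d = ng b
    · subst h1; subst h2; simp [mul_comm]
    · subst h1
      have : ng b ≠ d := fun e => h2 e.symm
      simp [h2, Matrix.single_apply, this]
    · simp [Matrix.single_apply, h1]
    · simp [Matrix.single_apply, h1]
  · intro e _ he
    simp [Matrix.single_apply, he.symm]
  · simp

theorem J_mul_single (a b : I m) (t : F) :
    J (Fin m) F * Matrix.single a b t = Matrix.single (ng a) b (sg F a * t) := by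
  ext c d
  rw [Matrix.mul_apply, Finset.sum_eq_single a]
  · rw [J_apply]
    by_cases h1 : a = ng c <;> by_cases h2 : b = d
    · subst h1; subst h2; simp [ng_ng, sg_ng]
    · simp [Matrix.single_apply, h2]
    · have : ng a ≠ c := fun e => h1 (by rw [← e, ng_ng])
      simp [Matrix.single_apply, h1, this]
    · simp [Matrix.single_apply, h2]
  · intro e _ he
    simp [Matrix.single_apply, he.symm]
  · simp

/-- uniform shape of `Xm`. -/
theorem Xm_eq (a b : I m) (t : F) :
    Xm a b t = 1 + Matrix.single a b t -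
      Matrix.single (ng b) (ng a) (if b = ng a then 0 else sg F a * sg F b * t) := by
  unfold Xm
  split_ifs with h
  · simp
  · rfl

theorem Xm_mem (a b : I m) (h : a ≠ b) (t : F) : Xm a b t ∈ Matrix.symplecticGroup (Fin m) F := by
  rw [SymplecticGroup.mem_iff]
  have h1 : ng b ≠ b := ng_ne b
  have h2 : ng b ≠ ng a := fun e => h (ng_inj.1 e).symm
  have h3 : a ≠ ng a := ne_ng a
  unfold Xm
  split_ifs with hb
  · subst hb
    simp only [Matrix.transpose_add, Matrix.transpose_one, Matrix.transpose_single, add_mul,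
      mul_add, one_mul, mul_one, single_mul_J, J_mul_single, ng_ng, sg_ng, mul_assoc,
      Matrix.single_mul_single_of_ne _ _ _ _ h3]
    rw [add_zero, add_assoc, ← Matrix.single_add]
    simp
  · simp only [Matrix.transpose_add, Matrix.transpose_sub, Matrix.transpose_one,
      Matrix.transpose_single, add_mul, sub_mul, mul_sub,
      mul_add, one_mul, mul_one, single_mul_J, J_mul_single, ng_ng, sg_ng, mul_assoc,
      Matrix.single_mul_single_of_ne _ _ _ _ h3, Matrix.single_mul_single_of_ne _ _ _ _ h1,
      Matrix.single_mul_single_of_ne _ _ _ _ h2, Matrix.single_mul_single_of_ne _ _ _ _ h]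
    have e1 : sg F a * (sg F a * (sg F b * t)) = sg F b * t := by
      rw [← mul_assoc, sg_mul_self, one_mul]
    simp only [neg_mul, e1, neg_neg, Matrix.single_neg]
    abel

-- piece `xval`
theorem X_val (a b : I m) (h : a ≠ b) (t : F) :
    ((X a b t : Sp m F) : Matrix (I m) (I m) F) = Xm a b t := by
  unfold X
  rw [dif_pos ⟨h, Xm_mem a b h t⟩]

end Cfsg.Agent.Lib.Helper84SpXval
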