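import Cfsg.Agent.Lib.Helper43SpDefs
import Cfsg.Agent.Lib.Helper84SpXval
import Cfsg.Agent.Lib.Helper1SpCabel

set_option autoImplicit false
set_option linter.unusedSimpArgs false
set_option linter.unusedVariables false

/-! Project 243, piece `cqinj`. -/

namespace Cfsg.Agent.Lib.Helper1SpCqinj

open Matrix Cfsg.Agent.Lib.Helper43St Cfsg.Agent.Lib.Helper43Sp

variable {m : ℕ} {F : Type*} [Field F] {P : Type*} [Group P] (S : CSys m F P)

/-- the index set of the roots `e_i + e_j`, `i ≤ j` -/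
abbrev BI (m : ℕ) := {p : Fin m × Fin m // p.1 ≤ p.2}

/-- the upper right block of `X (inl i) (inr j) t` -/
def Mq (i j : Fin m) (t : F) : Matrix (Fin m) (Fin m) F :=
  if i = j then Matrix.single i i t else Matrix.single i j t + Matrix.single j i t

theorem Xm_eq_blocks (i j : Fin m) (t : F) :
    Xm (Sum.inl i : I m) (Sum.inr j) t = Matrix.fromBlocks 1 (Mq i j t) 0 1 := by
  by_cases hij : i = j
  · subst hij
    rw [Xm, if_pos (show (Sum.inr i : I m) = ng (Sum.inl i) from rfl), Mq, if_pos rfl]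
    ext (a | a) (b | b) <;> simp [Matrix.one_apply, Matrix.single_apply]
  · have hne : (Sum.inr j : I m) ≠ ng (Sum.inl i) := fun h => hij (Sum.inr.inj h).symm
    rw [Xm, if_neg hne, Mq, if_neg hij]
    ext (a | a) (b | b) <;> simp [Matrix.one_apply, Matrix.single_apply, ng, sg]
    split_ifs <;> ring

theorem Mq_apply (b b0 : BI m) (t : F) :
    Mq b.1.1 b.1.2 t b0.1.1 b0.1.2 = if b = b0 then t else 0 := by
  obtain ⟨⟨i, j⟩, hij⟩ := b
  obtain ⟨⟨k, l⟩, hkl⟩ := b0
  simp only [Subtype.mk.injEq, Prod.mk.injEq] at hij hkl ⊢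
  unfold Mq
  split_ifs with h1 h2 h2
  · subst h1
    obtain ⟨rfl, rfl⟩ := h2
    simp
  · subst h1
    simp only [Matrix.single_apply]
    rw [if_neg h2]
  · obtain ⟨rfl, rfl⟩ := h2
    have : ¬ (j = i ∧ i = j) := fun h => h1 h.2
    simp [Matrix.single_apply, this]
  · have h3 : ¬ (j = k ∧ i = l) := by
      rintro ⟨rfl, rfl⟩
      exact h1 (le_antisymm hij hkl)
    simp [Matrix.single_apply, h2, h3]

theorem prod_val (c : BI m → F) : ∀ l : List (BI m),
    (((l.map fun b => (X (Sum.inl b.1.1) (Sum.inr b.1.2) (c b) : Sp m F)).prod : Sp m F) :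
      Matrix (I m) (I m) F) = Matrix.fromBlocks 1 ((l.map fun b => Mq b.1.1 b.1.2 (c b)).sum) 0 1
  | [] => by simp [Matrix.fromBlocks_one]
  | a :: l => by
    simp only [List.map_cons, List.prod_cons, List.sum_cons]
    rw [Submonoid.coe_mul, prod_val c l, Cfsg.Agent.Lib.Helper84SpXval.X_val _ _ (by simp),
      Xm_eq_blocks, Matrix.fromBlocks_multiply]
    simp [add_comm]

-- piece `cqinj`
theorem q_inj (hm : 2 ≤ m) (q : P) (hq : q ∈ S.Q) (h : S.π q = 1)
    (x_add : ∀ (a b : I m), a ≠ b → ∀ s t : F, S.x a b (s + t) = S.x a b s * S.x a b t)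
    (x_comm : ∀ (a b c d : I m), a ≠ b → c ≠ d → b ≠ c → a ≠ d → b ≠ ng d → a ≠ ng c →
      ∀ s t : F, Commute (S.x a b s) (S.x c d t)) : q = 1 := by
  classical
  let φ : BI m → F → P := fun b t => S.x (Sum.inl b.1.1) (Sum.inr b.1.2) t
  have hadd : ∀ b s t, φ b (s + t) = φ b s * φ b t := fun b s t => x_add _ _ (by simp) s t
  have hc : ∀ b b' s t, Commute (φ b s) (φ b' t) := fun b b' s t =>
    x_comm _ _ _ _ (by simp) (by simp) (by simp) (by simp) (by simp [ng]) (by simp [ng]) s t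
  have h0 : ∀ b, φ b 0 = 1 := by
    intro b
    have := hadd b 0 0
    rw [add_zero] at this
    exact (mul_eq_left.mp this.symm)
  have hle : S.Q ≤ Subgroup.closure {g | ∃ b t, g = φ b t} := by
    unfold CSys.Q
    rw [Subgroup.closure_le]
    rintro _ ⟨i, j, t, rfl⟩
    apply Subgroup.subset_closure
    by_cases hij : i ≤ j
    · exact ⟨⟨(i, j), hij⟩, t, rfl⟩
    · have hji : j ≤ i := le_of_not_ge hij
      have hne : i ≠ j := fun h => hij (le_of_eq h)
      refine ⟨⟨(j, i), hji⟩, t, ?_⟩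
      rw [S.sym (Sum.inl i) (Sum.inr j) t hne]
      simp [φ, ng, sg]
  obtain ⟨l, c, hnd, rfl⟩ := Cfsg.Agent.Lib.Helper1SpCabel.abel_nf φ hadd hc q (hle hq)
  have hπ : (S.π (l.map fun b => φ b (c b)).prod : Sp m F)
      = (l.map fun b => (X (Sum.inl b.1.1) (Sum.inr b.1.2) (c b) : Sp m F)).prod := by
    rw [map_list_prod, List.map_map]
    congr 1
    apply List.map_congr_left
    intro b _
    exact S.hπ _ _ _ (by simp)
  have hval := prod_val c l
  rw [← hπ, h] at hval
  have hsum : (l.map fun b => Mq b.1.1 b.1.2 (c b)).sum = 0 := by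
    have h1 : (Matrix.fromBlocks 1 0 0 1 : Matrix (I m) (I m) F)
        = Matrix.fromBlocks 1 ((l.map fun b => Mq b.1.1 b.1.2 (c b)).sum) 0 1 := by
      rw [Matrix.fromBlocks_one]
      exact hval
    exact ((Matrix.fromBlocks_inj.mp h1).2.1).symm
  rw [← List.sum_toFinset _ hnd] at hsum
  have hc0 : ∀ b0 ∈ l, c b0 = 0 := by
    intro b0 hb0
    have h1 := congrFun (congrFun hsum b0.1.1) b0.1.2
    rw [Matrix.sum_apply] at h1
    simp only [Mq_apply, Matrix.zero_apply] at h1
    rw [Finset.sum_ite_eq' , if_pos (List.mem_toFinset.mpr hb0)] at h1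
    exact h1
  apply List.prod_eq_one
  intro x hx
  obtain ⟨b, hb, rfl⟩ := List.mem_map.mp hx
  rw [hc0 b hb, h0]

end Cfsg.Agent.Lib.Helper1SpCqinj
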