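import Cfsg.Agent.Lib.Helper43SpDefs

set_option autoImplicit false

/-! Project 243, piece `pmval`. -/

namespace Cfsg.Agent.Lib.Helper36SpPmval

open Matrix Cfsg.Agent.Lib.Helper43St Cfsg.Agent.Lib.Helper43Sp

variable {m : ℕ} {F : Type*} [Field F]

theorem pmI_mul (σ τ : Equiv.Perm (Fin m)) (a : I m) : pmI (σ * τ) a = pmI σ (pmI τ a) := by
  cases a <;> simp [pmI]

theorem pmI_one (a : I m) : pmI (1 : Equiv.Perm (Fin m)) a = a := by
  cases a <;> simp [pmI]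

theorem pmI_inv_pmI (σ : Equiv.Perm (Fin m)) (a : I m) : pmI σ⁻¹ (pmI σ a) = a := by
  rw [← pmI_mul, inv_mul_cancel, pmI_one]

theorem pmI_pmI_inv (σ : Equiv.Perm (Fin m)) (a : I m) : pmI σ (pmI σ⁻¹ a) = a := by
  rw [← pmI_mul, mul_inv_cancel, pmI_one]

theorem eq_pmI_iff (σ : Equiv.Perm (Fin m)) (a b : I m) : a = pmI σ b ↔ pmI σ⁻¹ a = b := by
  constructor
  · rintro rfl
    exact pmI_inv_pmI σ b
  · rintro rfl
    exact (pmI_pmI_inv σ a).symm

theorem Pm_mul_apply (σ : Equiv.Perm (Fin m)) (M : Matrix (I m) (I m) F) (a b : I m) :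
    (Pm F σ * M) a b = M (pmI σ⁻¹ a) b := by
  rw [Matrix.mul_apply, Finset.sum_eq_single (pmI σ⁻¹ a)]
  · rw [Pm, Matrix.of_apply, if_pos (pmI_pmI_inv σ a).symm, one_mul]
  · intro c _ hc
    rw [Pm, Matrix.of_apply, if_neg (fun e => hc ((eq_pmI_iff σ a c).1 e).symm), zero_mul]
  · intro h
    exact absurd (Finset.mem_univ _) h

theorem mul_Pm_apply (σ : Equiv.Perm (Fin m)) (M : Matrix (I m) (I m) F) (a b : I m) :
    (M * Pm F σ) a b = M a (pmI σ b) := by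
  rw [Matrix.mul_apply, Finset.sum_eq_single (pmI σ b)]
  · rw [Pm, Matrix.of_apply, if_pos rfl, mul_one]
  · intro c _ hc
    rw [Pm, Matrix.of_apply, if_neg hc, mul_zero]
  · intro h
    exact absurd (Finset.mem_univ _) h

theorem Pm_transpose (σ : Equiv.Perm (Fin m)) : (Pm F σ)ᵀ = Pm F σ⁻¹ := by
  ext a b
  rw [Matrix.transpose_apply, Pm, Pm, Matrix.of_apply, Matrix.of_apply]
  by_cases h : b = pmI σ a
  · rw [if_pos h, if_pos (by rw [h, pmI_inv_pmI])]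
  · rw [if_neg h, if_neg (fun e => h (by rw [e, pmI_pmI_inv]))]

theorem J_pmI (τ : Equiv.Perm (Fin m)) (a b : I m) :
    Matrix.J (Fin m) F (pmI τ a) (pmI τ b) = Matrix.J (Fin m) F a b := by
  rcases a with i | i <;> rcases b with j | j <;>
    simp [Matrix.J, pmI, Matrix.one_apply]

theorem Pm_mem (σ : Equiv.Perm (Fin m)) : Pm F σ ∈ Matrix.symplecticGroup (Fin m) F := by
  rw [SymplecticGroup.mem_iff, Pm_transpose]
  ext a b
  rw [mul_Pm_apply, Pm_mul_apply, J_pmI]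

theorem PM_val (σ : Equiv.Perm (Fin m)) : ((PM F σ : Sp m F) : Matrix (I m) (I m) F) = Pm F σ := by
  unfold PM
  rw [dif_pos (Pm_mem σ)]

theorem Pm_mul (σ τ : Equiv.Perm (Fin m)) : Pm F (σ * τ) = Pm F σ * Pm F τ := by
  ext a b
  rw [Pm_mul_apply, Pm, Pm, Matrix.of_apply, Matrix.of_apply, pmI_mul]
  by_cases h : a = pmI σ (pmI τ b)
  · rw [if_pos h, if_pos ((eq_pmI_iff σ a _).1 h)]
  · rw [if_neg h, if_neg (fun e => h ((eq_pmI_iff σ a _).2 e))]

theorem Pm_one : Pm F (1 : Equiv.Perm (Fin m)) = 1 := by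
  ext a b
  rw [Pm, Matrix.of_apply, pmI_one, Matrix.one_apply]

theorem PM_mul (σ τ : Equiv.Perm (Fin m)) : (PM F (σ * τ) : Sp m F) = PM F σ * PM F τ := by
  apply Subtype.ext
  rw [Submonoid.coe_mul, PM_val, PM_val, PM_val, Pm_mul]

theorem PM_one : (PM F (1 : Equiv.Perm (Fin m)) : Sp m F) = 1 := by
  apply Subtype.ext
  rw [PM_val, Pm_one, Submonoid.coe_one]

theorem PM_inv (σ : Equiv.Perm (Fin m)) : (PM F σ : Sp m F)⁻¹ = PM F σ⁻¹ := by
  rw [inv_eq_iff_mul_eq_one, ← PM_mul, mul_inv_cancel, PM_one]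

end Cfsg.Agent.Lib.Helper36SpPmval
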