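import Cfsg.Agent.Lib.Helper43SpDefs
import Cfsg.Agent.Lib.Helper84SpXval

set_option autoImplicit false

namespace Cfsg.Agent.Lib.Helper77SpEmb

open Matrix Cfsg.Agent.Lib.Helper43St Cfsg.Agent.Lib.Helper43Sp
open Cfsg.Agent.Lib.Helper84SpXval (J_apply ng_ng sg_ng)

variable {m : ℕ} {F : Type*} [Field F]

theorem e2_inj (i j : Fin m) (hij : i ≠ j) : Function.Injective (e2 i j) := by
  have h : Function.Injective (![i, j] : Fin 2 → Fin m) := by
    intro a b hab
    fin_cases a <;> fin_cases b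
    · rfl
    · exact absurd hab hij
    · exact absurd hab.symm hij
    · rfl
  exact h.sumMap h

theorem e2_ng (i j : Fin m) (c : I 2) : e2 i j (ng c) = ng (e2 i j c) := by
  rcases c with c | c <;> rfl

theorem sg_e2 (i j : Fin m) (c : I 2) : sg F (e2 i j c) = sg F c := by
  rcases c with c | c <;> rfl

theorem ab_e2 (i j : Fin m) (c : I 2) : ab (e2 i j c) = i ∨ ab (e2 i j c) = j := by
  rcases c with c | c <;> fin_cases c
  · left; rfl
  · right; rfl
  · left; rfl
  · right; rfl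

theorem exists_e2 (i j : Fin m) (a : I m) (h : ab a = i ∨ ab a = j) : ∃ c, a = e2 i j c := by
  rcases a with a | a
  · rcases h with h | h
    · exact ⟨Sum.inl 0, by rw [← h]; rfl⟩
    · exact ⟨Sum.inl 1, by rw [← h]; rfl⟩
  · rcases h with h | h
    · exact ⟨Sum.inr 0, by rw [← h]; rfl⟩
    · exact ⟨Sum.inr 1, by rw [← h]; rfl⟩

/-- the rectangular matrix of the embedding -/
def Qm (F : Type*) [Field F] (i j : Fin m) : Matrix (I m) (I 2) F :=
  Matrix.of fun a c => if a = e2 i j c then 1 else 0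

/-- the projection on the other coordinates -/
def Rm (F : Type*) [Field F] (i j : Fin m) : Matrix (I m) (I m) F :=
  Matrix.of fun a b => if a = b ∧ ab a ≠ i ∧ ab a ≠ j then 1 else 0

theorem Qm_apply (i j : Fin m) (a : I m) (c : I 2) : Qm F i j a c = if a = e2 i j c then 1 else 0 := rfl

theorem Rm_apply (i j : Fin m) (a b : I m) :
    Rm F i j a b = if a = b ∧ ab a ≠ i ∧ ab a ≠ j then 1 else 0 := rfl

theorem Em_eq (i j : Fin m) (g : Matrix (I 2) (I 2) F) :
    Em i j g = Qm F i j * g * (Qm F i j)ᵀ + Rm F i j := by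
  ext a b
  rw [Matrix.add_apply, Matrix.mul_apply]
  simp only [Matrix.mul_apply, Matrix.transpose_apply]
  unfold Em
  simp only [Matrix.of_apply]
  congr 1
  rw [Finset.sum_comm]
  refine Finset.sum_congr rfl fun d _ => ?_
  rw [Finset.sum_mul]
  refine Finset.sum_congr rfl fun c _ => ?_
  rw [Qm_apply, Qm_apply]
  by_cases h1 : a = e2 i j c <;> by_cases h2 : b = e2 i j d <;> simp [h1, h2]

theorem QtQ (i j : Fin m) (hij : i ≠ j) : (Qm F i j)ᵀ * Qm F i j = 1 := by
  ext c d
  rw [Matrix.mul_apply]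
  simp only [Matrix.transpose_apply, Qm_apply, mul_ite, mul_one, mul_zero]
  rw [Finset.sum_ite_eq']
  simp only [Finset.mem_univ, if_true, Matrix.one_apply]
  by_cases h : c = d
  · subst h; simp
  · have : ¬ (e2 i j d = e2 i j c) := fun e => h (e2_inj i j hij e).symm
    simp [h, this]

theorem QQt_add (i j : Fin m) (hij : i ≠ j) : Qm F i j * (Qm F i j)ᵀ + Rm F i j = 1 := by
  ext a b
  rw [Matrix.add_apply, Matrix.mul_apply]
  simp only [Matrix.transpose_apply, Qm_apply, Rm_apply, mul_ite, mul_one, mul_zero]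
  by_cases ha : ab a = i ∨ ab a = j
  · obtain ⟨c, rfl⟩ := exists_e2 i j a ha
    have h0 : ¬ (e2 i j c = b ∧ ab (e2 i j c) ≠ i ∧ ab (e2 i j c) ≠ j) := by
      rintro ⟨-, h1, h2⟩
      rcases ha with h | h
      · exact h1 h
      · exact h2 h
    rw [if_neg h0, add_zero]
    simp only [(e2_inj i j hij).eq_iff]
    rw [Finset.sum_eq_single c]
    · simp [Matrix.one_apply, eq_comm]
    · intro d _ hd
      have : ¬ (c = d) := fun e => hd e.symm
      simp [this]
    · intro h; exact absurd (Finset.mem_univ _) h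
  · have h1 : ∀ c, a ≠ e2 i j c := by
      intro c hc
      apply ha
      rw [hc]
      exact ab_e2 i j c
    rw [not_or] at ha
    simp [h1, ha.1, ha.2, Matrix.one_apply]

theorem RQ (i j : Fin m) : Rm F i j * Qm F i j = 0 := by
  ext a c
  rw [Matrix.mul_apply]
  simp only [Qm_apply, Rm_apply, mul_ite, mul_one, mul_zero]
  rw [Finset.sum_ite_eq']
  simp only [Finset.mem_univ, if_true, Matrix.zero_apply]
  rw [if_neg]
  rintro ⟨rfl, h1, h2⟩
  rcases ab_e2 i j c with h | h
  · exact h1 h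
  · exact h2 h

theorem Rm_transpose (i j : Fin m) : (Rm F i j)ᵀ = Rm F i j := by
  ext a b
  rw [Matrix.transpose_apply, Rm_apply, Rm_apply]
  by_cases h : a = b
  · subst h; rfl
  · have h' : ¬ (b = a) := fun e => h e.symm
    simp [h, h']

theorem QtR (i j : Fin m) : (Qm F i j)ᵀ * Rm F i j = 0 := by
  have := congrArg Matrix.transpose (RQ (F := F) i j)
  rwa [Matrix.transpose_mul, Rm_transpose, Matrix.transpose_zero] at this

theorem RR (i j : Fin m) (hij : i ≠ j) : Rm F i j * Rm F i j = Rm F i j := by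
  have h := congrArg (fun M => Rm F i j * M) (QQt_add (F := F) i j hij)
  simp only [Matrix.mul_add, Matrix.mul_one, ← Matrix.mul_assoc, RQ, Matrix.zero_mul, zero_add] at h
  exact h

theorem JQ (i j : Fin m) (hij : i ≠ j) : J (Fin m) F * Qm F i j = Qm F i j * J (Fin 2) F := by
  ext a c
  rw [Matrix.mul_apply, Matrix.mul_apply]
  simp only [Qm_apply, J_apply, mul_ite, _root_.mul_one, MulZeroClass.mul_zero, ite_mul, _root_.one_mul, MulZeroClass.zero_mul, ite_self]
  rw [Finset.sum_ite_eq']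
  simp only [Finset.mem_univ, if_true]
  rw [Finset.sum_eq_single (ng c)]
  · rw [ng_ng, if_pos rfl, e2_ng, sg_ng]
    by_cases h : a = ng (e2 i j c)
    · rw [if_pos h, if_pos (by rw [h, ng_ng]), h, sg_ng, sg_e2]
    · rw [if_neg h, if_neg]
      intro e
      apply h
      rw [e, ng_ng]
  · intro d _ hd
    have : ¬ (c = ng d) := fun e => hd (by rw [e, ng_ng])
    simp [this]
  · intro h; exact absurd (Finset.mem_univ _) h

theorem Em_one (i j : Fin m) (hij : i ≠ j) : Em i j (1 : Matrix (I 2) (I 2) F) = 1 := by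
  rw [Em_eq, Matrix.mul_one, QQt_add i j hij]

theorem Em_mul (i j : Fin m) (hij : i ≠ j) (g h : Matrix (I 2) (I 2) F) :
    Em i j (g * h) = Em i j g * Em i j h := by
  rw [Em_eq, Em_eq, Em_eq, Matrix.add_mul, Matrix.mul_add, Matrix.mul_add, RR i j hij]
  have h1 : Qm F i j * g * (Qm F i j)ᵀ * (Qm F i j * h * (Qm F i j)ᵀ) =
      Qm F i j * (g * h) * (Qm F i j)ᵀ := by
    calc Qm F i j * g * (Qm F i j)ᵀ * (Qm F i j * h * (Qm F i j)ᵀ)
        = Qm F i j * g * ((Qm F i j)ᵀ * Qm F i j) * h * (Qm F i j)ᵀ := by simp only [Matrix.mul_assoc]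
      _ = _ := by rw [QtQ i j hij, Matrix.mul_one]; simp only [Matrix.mul_assoc]
  have h2 : Qm F i j * g * (Qm F i j)ᵀ * Rm F i j = 0 := by
    rw [Matrix.mul_assoc, QtR, Matrix.mul_zero]
  have h3 : Rm F i j * (Qm F i j * h * (Qm F i j)ᵀ) = 0 := by
    rw [← Matrix.mul_assoc, ← Matrix.mul_assoc, RQ, Matrix.zero_mul, Matrix.zero_mul]
  rw [h1, h2, h3, add_zero, zero_add]

theorem Em_transpose (i j : Fin m) (g : Matrix (I 2) (I 2) F) : (Em i j g)ᵀ = Em i j gᵀ := by
  rw [Em_eq, Em_eq, Matrix.transpose_add, Matrix.transpose_mul, Matrix.transpose_mul,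
    Matrix.transpose_transpose, Rm_transpose, Matrix.mul_assoc]

theorem Em_J (i j : Fin m) (hij : i ≠ j) (g : Matrix (I 2) (I 2) F) :
    Em i j g * J (Fin m) F = Qm F i j * (g * J (Fin 2) F) * (Qm F i j)ᵀ + Rm F i j * J (Fin m) F := by
  have hJt : (Qm F i j)ᵀ * J (Fin m) F = J (Fin 2) F * (Qm F i j)ᵀ := by
    have := congrArg Matrix.transpose (JQ (F := F) i j hij)
    rw [Matrix.transpose_mul, Matrix.transpose_mul, J_transpose, J_transpose] at this
    simpa using this
  rw [Em_eq, Matrix.add_mul, Matrix.mul_assoc, hJt]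
  simp only [Matrix.mul_assoc]

theorem Em_mem (i j : Fin m) (hij : i ≠ j) (g : Matrix (I 2) (I 2) F)
    (hg : g ∈ Matrix.symplecticGroup (Fin 2) F) : Em i j g ∈ Matrix.symplecticGroup (Fin m) F := by
  rw [SymplecticGroup.mem_iff] at hg ⊢
  have key : ∀ g h : Matrix (I 2) (I 2) F, Em i j g * J (Fin m) F * Em i j h =
      Qm F i j * (g * J (Fin 2) F * h) * (Qm F i j)ᵀ + Rm F i j * J (Fin m) F * Rm F i j := by
    intro g h
    rw [Em_J i j hij, Em_eq i j h, Matrix.add_mul, Matrix.mul_add, Matrix.mul_add]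
    have h1 : Qm F i j * (g * J (Fin 2) F) * (Qm F i j)ᵀ * (Qm F i j * h * (Qm F i j)ᵀ) =
        Qm F i j * (g * J (Fin 2) F * h) * (Qm F i j)ᵀ := by
      calc Qm F i j * (g * J (Fin 2) F) * (Qm F i j)ᵀ * (Qm F i j * h * (Qm F i j)ᵀ)
          = Qm F i j * (g * J (Fin 2) F) * ((Qm F i j)ᵀ * Qm F i j) * h * (Qm F i j)ᵀ := by
            simp only [Matrix.mul_assoc]
        _ = _ := by rw [QtQ i j hij, Matrix.mul_one]; simp only [Matrix.mul_assoc]
    have h2 : Qm F i j * (g * J (Fin 2) F) * (Qm F i j)ᵀ * Rm F i j = 0 := by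
      rw [Matrix.mul_assoc, QtR, Matrix.mul_zero]
    have h3 : Rm F i j * J (Fin m) F * (Qm F i j * h * (Qm F i j)ᵀ) = 0 := by
      calc Rm F i j * J (Fin m) F * (Qm F i j * h * (Qm F i j)ᵀ)
          = Rm F i j * (J (Fin m) F * Qm F i j) * h * (Qm F i j)ᵀ := by simp only [Matrix.mul_assoc]
        _ = Rm F i j * Qm F i j * J (Fin 2) F * h * (Qm F i j)ᵀ := by
            rw [JQ i j hij]; simp only [Matrix.mul_assoc]
        _ = 0 := by rw [RQ]; simp
    rw [h1, h2, h3, add_zero, zero_add]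
  rw [Em_transpose, key, hg]
  have := key 1 1
  rw [Em_one i j hij, Matrix.one_mul, Matrix.mul_one, Matrix.one_mul, Matrix.mul_one] at this
  exact this.symm

theorem exists_emb (i j : Fin m) (hij : i ≠ j) :
    ∃ E : Sp 2 F →* Sp m F, ∀ g, ((E g : Sp m F) : Matrix (I m) (I m) F) = Em i j g.1 :=
  ⟨{ toFun := fun g => ⟨Em i j g.1, Em_mem i j hij g.1 g.2⟩
     map_one' := Subtype.ext (Em_one i j hij)
     map_mul' := fun g h => Subtype.ext (Em_mul i j hij g.1 h.1) }, fun _ => rfl⟩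

end Cfsg.Agent.Lib.Helper77SpEmb
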