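import Cfsg.Agent.Lib.Helper43SpDefs
import Cfsg.Agent.Lib.Helper77SpEmb

set_option autoImplicit false

namespace Cfsg.Agent.Lib.Helper77SpEmbx

open Matrix Cfsg.Agent.Lib.Helper43St Cfsg.Agent.Lib.Helper43Sp
open Cfsg.Agent.Lib.Helper77SpEmb

variable {m : ℕ} {F : Type*} [Field F]

theorem Q_single_Qt (i j : Fin m) (c d : I 2) (t : F) :
    Qm F i j * Matrix.single c d t * (Qm F i j)ᵀ = Matrix.single (e2 i j c) (e2 i j d) t := by
  ext a b
  rw [Matrix.mul_apply]
  simp only [Matrix.mul_apply, Matrix.transpose_apply, Qm_apply, Matrix.single_apply]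
  rw [Finset.sum_eq_single d]
  · rw [Finset.sum_eq_single c]
    · by_cases h1 : a = e2 i j c <;> by_cases h2 : b = e2 i j d
      · subst h1; subst h2; simp
      · have h2' : ¬ (e2 i j d = b) := fun e => h2 e.symm
        simp [h2, h2']
      · have h1' : ¬ (e2 i j c = a) := fun e => h1 e.symm
        simp [h1, h1']
      · have h1' : ¬ (e2 i j c = a) := fun e => h1 e.symm
        simp [h1, h1']
    · intro x _ hx
      have : ¬ (c = x) := fun e => hx e.symm
      simp [this]
    · intro h; exact absurd (Finset.mem_univ _) h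
  · intro y _ hy
    have : ¬ (d = y) := fun e => hy e.symm
    simp [this]
  · intro h; exact absurd (Finset.mem_univ _) h

theorem Em_X (i j : Fin m) (hij : i ≠ j) (c d : I 2) (hcd : c ≠ d) (t : F) :
    Em i j (Xm c d t) = Xm (e2 i j c) (e2 i j d) t := by
  rw [Em_eq]
  by_cases h : d = ng c
  · have h' : e2 i j d = ng (e2 i j c) := by rw [h, e2_ng]
    rw [Xm, if_pos h, Xm, if_pos h', Matrix.mul_add, Matrix.add_mul, Matrix.mul_one, Q_single_Qt,
      add_right_comm, QQt_add i j hij]
  · have h' : ¬ (e2 i j d = ng (e2 i j c)) := by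
      rw [← e2_ng]; exact fun e => h (e2_inj i j hij e)
    rw [Xm, if_neg h, Xm, if_neg h', Matrix.mul_sub, Matrix.sub_mul, Matrix.mul_add, Matrix.add_mul,
      Matrix.mul_one, Q_single_Qt, Q_single_Qt, e2_ng, e2_ng, sg_e2, sg_e2]
    rw [← QQt_add (F := F) i j hij]
    abel

theorem pmI_e2 (i j : Fin m) (d : I 2) :
    pmI (Equiv.swap i j) (e2 i j d) = e2 i j (pmI (Equiv.swap 0 1) d) := by
  rcases d with d | d <;> fin_cases d <;> simp [pmI, e2]

theorem Pm_apply (σ : Equiv.Perm (Fin m)) (a b : I m) : Pm F σ a b = if a = pmI σ b then 1 else 0 := rfl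

theorem Em_P (i j : Fin m) (hij : i ≠ j) :
    Em i j (Pm F (Equiv.swap 0 1)) = Pm F (Equiv.swap i j) := by
  have h1 : Pm F (Equiv.swap i j) * Qm F i j =
      Qm F i j * (Pm F (Equiv.swap (0 : Fin 2) 1) : Matrix (I 2) (I 2) F) := by
    ext a d
    rw [Matrix.mul_apply, Matrix.mul_apply]
    simp only [Qm_apply, Pm_apply, mul_ite, mul_one, mul_zero]
    rw [Finset.sum_ite_eq', Finset.sum_ite_eq']
    simp only [Finset.mem_univ, if_true]
    rw [pmI_e2]
  have h2 : Pm F (Equiv.swap i j) * Rm F i j = Rm F i j := by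
    ext a b
    rw [Matrix.mul_apply]
    simp only [Rm_apply, Pm_apply]
    rw [Finset.sum_eq_single b]
    · by_cases hb : ab b ≠ i ∧ ab b ≠ j
      · have : pmI (Equiv.swap i j) b = b := by
          rcases b with b | b
          · simp only [pmI, Sum.map_inl]
            exact congrArg _ (Equiv.swap_apply_of_ne_of_ne hb.1 hb.2)
          · simp only [pmI, Sum.map_inr]
            exact congrArg _ (Equiv.swap_apply_of_ne_of_ne hb.1 hb.2)
        rw [this]
        by_cases hab : a = b
        · subst hab; simp [hb.1, hb.2]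
        · simp [hab]
      · have h3 : ¬ (b = b ∧ ab b ≠ i ∧ ab b ≠ j) := fun h => hb h.2
        have h4 : ¬ (a = b ∧ ab a ≠ i ∧ ab a ≠ j) := by
          rintro ⟨rfl, h⟩
          exact hb h
        rw [if_neg h3, if_neg h4, mul_zero]
    · intro x _ hx
      have : ¬ (x = b ∧ ab x ≠ i ∧ ab x ≠ j) := fun h => hx h.1
      rw [if_neg this, mul_zero]
    · intro h; exact absurd (Finset.mem_univ _) h
  rw [Em_eq, ← h1, Matrix.mul_assoc]
  conv_lhs => rw [← h2]
  rw [← Matrix.mul_add, QQt_add i j hij, Matrix.mul_one]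

end Cfsg.Agent.Lib.Helper77SpEmbx
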