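import Cfsg.Agent.Lib.Helper43SpDefs2
import Cfsg.Agent.Lib.Helper84SpXval
import Cfsg.Agent.Lib.Helper36SpPmval
import Cfsg.Agent.Lib.Helper77SpEmb
import Cfsg.Agent.Lib.Helper77SpEmbx

set_option autoImplicit false
set_option linter.unusedVariables false

/-! Project 243, piece `ehw` (and the definition `fS` of the skeleton `SkelD`). -/

namespace Cfsg.Agent.Lib.Helper1SpEhw

open Matrix Cfsg.Agent.Lib.Helper43BP Cfsg.Agent.Lib.Helper43St Cfsg.Agent.Lib.Helper43Sp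

variable (m : ℕ) (F : Type*) [Field F]

/-- the map `A_n * Sp_4(F) → Sp_{2n}(F)` -/
noncomputable def fS (pm : Equiv.Perm (Fin (m + 3)) →* Sp (m + 3) F) (E : Sp 2 F →* Sp (m + 3) F) :
    CQ m F →* Sp (m + 3) F :=
  Monoid.Coprod.lift (pm.comp (alternatingGroup (Fin (m + 3))).subtype) E

variable {m F}

theorem h01 : (0 : Fin (m + 3)) ≠ 1 := by
  intro h
  have := congrArg Fin.val h
  simp at this

theorem fS_jr (pm : Equiv.Perm (Fin (m + 3)) →* Sp (m + 3) F) (E : Sp 2 F →* Sp (m + 3) F)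
    (g : Sp 2 F) : fS m F pm E (jr g) = E g := by
  unfold fS jr
  rw [Monoid.Coprod.lift_apply_inr]

theorem fS_aw (pm : Equiv.Perm (Fin (m + 3)) →* Sp (m + 3) F) (E : Sp 2 F →* Sp (m + 3) F)
    (σ : Equiv.Perm (Fin (m + 3))) (h : σ ∈ alternatingGroup (Fin (m + 3))) :
    fS m F pm E (aw F σ) = pm σ := by
  unfold fS aw
  rw [dif_pos h, Monoid.Coprod.lift_apply_inl]
  rfl

theorem E_PM (E : Sp 2 F →* Sp (m + 3) F)
    (hE : ∀ g, ((E g : Sp (m + 3) F) : Matrix (I (m + 3)) (I (m + 3)) F) = Em 0 1 g.1) :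
    E (PM F (Equiv.swap 0 1)) = PM F (Equiv.swap 0 1) := by
  apply Subtype.ext
  have h1 : ((PM F (Equiv.swap 0 1) : Sp 2 F)).1 = Pm F (Equiv.swap 0 1) :=
    Cfsg.Agent.Lib.Helper36SpPmval.PM_val _
  have h2 : ((PM F (Equiv.swap 0 1) : Sp (m + 3) F) : Matrix (I (m + 3)) (I (m + 3)) F)
      = Pm F (Equiv.swap 0 1) := Cfsg.Agent.Lib.Helper36SpPmval.PM_val _
  rw [hE, h1, h2, Cfsg.Agent.Lib.Helper77SpEmbx.Em_P 0 1 h01]

theorem E_X (E : Sp 2 F →* Sp (m + 3) F)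
    (hE : ∀ g, ((E g : Sp (m + 3) F) : Matrix (I (m + 3)) (I (m + 3)) F) = Em 0 1 g.1)
    (c d : I 2) (hcd : c ≠ d) (t : F) : E (X c d t) = X (e2 0 1 c) (e2 0 1 d) t := by
  apply Subtype.ext
  have hne : e2 (0 : Fin (m + 3)) 1 c ≠ e2 0 1 d :=
    fun h => hcd (Cfsg.Agent.Lib.Helper77SpEmb.e2_inj 0 1 h01 h)
  rw [hE, Cfsg.Agent.Lib.Helper84SpXval.X_val _ _ hne]
  have h1 : ((X c d t : Sp 2 F)).1 = Xm c d t := Cfsg.Agent.Lib.Helper84SpXval.X_val _ _ hcd t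
  rw [h1, Cfsg.Agent.Lib.Helper77SpEmbx.Em_X 0 1 h01 c d hcd]

variable (m F)

-- piece `ehw`
theorem fS_hw (pm : Equiv.Perm (Fin (m + 3)) →* Sp (m + 3) F) (hpm : ∀ σ, pm σ = PM F σ)
    (E : Sp 2 F →* Sp (m + 3) F)
    (hE : ∀ g, ((E g : Sp (m + 3) F) : Matrix (I (m + 3)) (I (m + 3)) F) = Em 0 1 g.1)
    (σ : Equiv.Perm (Fin (m + 3))) : fS m F pm E (hw F σ) = PM F σ := by
  unfold hw
  split_ifs with h
  · rw [fS_aw pm E σ h, hpm]
  · have hs : Equiv.Perm.sign σ = -1 := by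
      rcases Int.units_eq_one_or (Equiv.Perm.sign σ) with h1 | h1
      · exact absurd (Equiv.Perm.mem_alternatingGroup.mpr h1) h
      · exact h1
    have h2 : σ * Equiv.swap 0 1 ∈ alternatingGroup (Fin (m + 3)) := by
      rw [Equiv.Perm.mem_alternatingGroup, map_mul, hs, Equiv.Perm.sign_swap h01]
      simp
    rw [map_mul, fS_aw pm E _ h2, fS_jr, E_PM E hE, ← hpm, ← map_mul, mul_assoc,
      Equiv.swap_mul_self, mul_one, hpm]

end Cfsg.Agent.Lib.Helper1SpEhw
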