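import Cfsg.Agent.Lib.Helper36SpPmval

set_option autoImplicit false

/-! Project 243, piece `pmx` (the piece `xval` is the extra hypothesis `X_val` at the end). -/

namespace Cfsg.Agent.Lib.Helper36SpPmx

open Matrix Cfsg.Agent.Lib.Helper43St Cfsg.Agent.Lib.Helper43Sp Cfsg.Agent.Lib.Helper36SpPmval

variable {m : ℕ} {F : Type*} [Field F]

theorem ng_pmI (σ : Equiv.Perm (Fin m)) (a : I m) : ng (pmI σ a) = pmI σ (ng a) := by
  cases a <;> simp [ng, pmI]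

theorem sg_pmI (σ : Equiv.Perm (Fin m)) (a : I m) : sg F (pmI σ a) = sg F a := by
  cases a <;> simp [sg, pmI]

theorem pmI_injective (σ : Equiv.Perm (Fin m)) : Function.Injective (pmI σ) := by
  intro a b h
  rw [← pmI_inv_pmI σ a, h, pmI_inv_pmI]

theorem Pm_single (σ : Equiv.Perm (Fin m)) (a b : I m) (t : F) :
    Pm F σ * Matrix.single a b t * Pm F σ⁻¹ = Matrix.single (pmI σ a) (pmI σ b) t := by
  ext i j
  rw [mul_Pm_apply, Pm_mul_apply, Matrix.single_apply, Matrix.single_apply]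
  by_cases h : a = pmI σ⁻¹ i ∧ b = pmI σ⁻¹ j
  · rw [if_pos h, if_pos ⟨by rw [h.1, pmI_pmI_inv], by rw [h.2, pmI_pmI_inv]⟩]
  · rw [if_neg h, if_neg (fun e => h ⟨by rw [← e.1, pmI_inv_pmI], by rw [← e.2, pmI_inv_pmI]⟩)]

theorem Pm_Xm (σ : Equiv.Perm (Fin m)) (a b : I m) (t : F) :
    Pm F σ * Xm a b t * Pm F σ⁻¹ = Xm (pmI σ a) (pmI σ b) t := by
  have h1 : Pm F σ * 1 * Pm F σ⁻¹ = 1 := by
    rw [mul_one, ← Pm_mul, mul_inv_cancel, Pm_one]
  unfold Xm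
  by_cases hb : b = ng a
  · rw [if_pos hb, if_pos (by rw [hb, ng_pmI]), mul_add, add_mul, h1, Pm_single]
  · rw [if_neg hb, if_neg (fun e => hb (pmI_injective σ (by rw [e, ng_pmI]))), mul_sub, mul_add,
      sub_mul, add_mul, h1, Pm_single, Pm_single, ng_pmI, ng_pmI, sg_pmI, sg_pmI]

theorem PM_X (σ : Equiv.Perm (Fin m)) (a b : I m) (h : a ≠ b) (t : F)
    (X_val : ∀ (a b : I m), a ≠ b → ∀ t : F,
      ((X a b t : Sp m F) : Matrix (I m) (I m) F) = Xm a b t) :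
    (PM F σ : Sp m F) * X a b t * (PM F σ)⁻¹ = X (pmI σ a) (pmI σ b) t := by
  rw [PM_inv]
  apply Subtype.ext
  rw [Submonoid.coe_mul, Submonoid.coe_mul, PM_val, PM_val, X_val a b h,
    X_val _ _ (fun e => h (pmI_injective σ e)), Pm_Xm]

end Cfsg.Agent.Lib.Helper36SpPmx
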