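import Cfsg.Agent.Lib.Helper43SpDefs

set_option autoImplicit false

/-! Project 243, piece `xbasic` (the piece `xval` is the extra hypothesis `X_val` at the end). -/

namespace Cfsg.Agent.Lib.Helper36SpXbasic

open Matrix Cfsg.Agent.Lib.Helper43St Cfsg.Agent.Lib.Helper43Sp

variable {m : ℕ} {F : Type*} [Field F]

theorem ng_ne (a : I m) : ng a ≠ a := by
  cases a <;> simp [ng]

theorem ng_ng (a : I m) : ng (ng a) = a := by
  cases a <;> simp [ng]

theorem ng_inj {a b : I m} (h : ng a = ng b) : a = b := by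
  rw [← ng_ng a, h, ng_ng]

theorem ab_ng (a : I m) : ab (ng a) = ab a := by
  cases a <;> simp [ng, ab]

theorem sg_ng (a : I m) : sg F (ng a) = - sg F a := by
  cases a <;> simp [ng, sg]

theorem sg_mul_self (a : I m) : sg F a * sg F a = 1 := by
  cases a <;> simp [sg]

theorem Xm_add (a b : I m) (h : a ≠ b) (s t : F) : Xm a b (s + t) = Xm a b s * Xm a b t := by
  unfold Xm
  have e1 : ∀ x y : F, Matrix.single a b x * Matrix.single a b y = 0 :=
    fun x y => Matrix.single_mul_single_of_ne _ a b a (Ne.symm h) y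
  split_ifs with hb
  · rw [add_mul, mul_add, mul_add, e1, Matrix.single_add]
    simp only [one_mul, mul_one, add_zero]
    abel
  · have e2 : ∀ x y : F, Matrix.single a b x * Matrix.single (ng b) (ng a) y = 0 :=
      fun x y => Matrix.single_mul_single_of_ne _ a b (ng b) (Ne.symm (ng_ne b)) y
    have e3 : ∀ x y : F, Matrix.single (ng b) (ng a) x * Matrix.single a b y = 0 :=
      fun x y => Matrix.single_mul_single_of_ne _ (ng b) (ng a) a (ng_ne a) y
    have e4 : ∀ x y : F, Matrix.single (ng b) (ng a) x * Matrix.single (ng b) (ng a) y = 0 :=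
      fun x y => Matrix.single_mul_single_of_ne _ (ng b) (ng a) (ng b) (fun e => h (ng_inj e)) y
    simp only [sub_mul, add_mul, mul_sub, mul_add, e1, e2, e3, e4, Matrix.single_add, one_mul,
      mul_one, add_zero, sub_zero]
    abel

theorem Xm_zero (a b : I m) : Xm a b (0 : F) = 1 := by
  unfold Xm
  split_ifs <;> simp

theorem Xm_apply (a b : I m) (h : a ≠ b) (t : F) : Xm a b t a b = t := by
  unfold Xm
  split_ifs with hb
  · rw [Matrix.add_apply, Matrix.one_apply_ne h, Matrix.single_apply_same, zero_add]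
  · rw [Matrix.sub_apply, Matrix.add_apply, Matrix.one_apply_ne h, Matrix.single_apply_same,
      Matrix.single_apply_of_ne _ _ _ _ _ (fun e => hb e.2.symm), zero_add, sub_zero]

theorem Xm_sym (a b : I m) (h : ab a ≠ ab b) (t : F) :
    Xm a b t = Xm (ng b) (ng a) (-(sg F a * sg F b * t)) := by
  have h1 : b ≠ ng a := by
    rintro rfl
    exact h (ab_ng a).symm
  have h2 : ng a ≠ ng (ng b) := by
    rw [ng_ng]
    exact Ne.symm h1
  unfold Xm
  rw [if_neg h1, if_neg h2, ng_ng, ng_ng, sg_ng, sg_ng]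
  have e : -sg F b * -sg F a * -(sg F a * sg F b * t) = -t := by
    have h3 := sg_mul_self (F := F) a
    have h4 := sg_mul_self (F := F) b
    calc -sg F b * -sg F a * -(sg F a * sg F b * t)
        = -((sg F a * sg F a) * (sg F b * sg F b) * t) := by ring
      _ = -t := by rw [h3, h4]; ring
  rw [e, ← Matrix.single_neg, ← Matrix.single_neg]
  abel

theorem X_self (a : I m) (t : F) : (X a a t : Sp m F) = 1 := by
  unfold X
  rw [dif_neg (fun h => h.1 rfl)]

theorem X_zero (a b : I m) : (X a b 0 : Sp m F) = 1 := by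
  unfold X
  split_ifs with h
  · exact Subtype.ext (Xm_zero a b)
  · rfl

theorem X_add (a b : I m) (h : a ≠ b) (s t : F)
    (X_val : ∀ (a b : I m), a ≠ b → ∀ t : F,
      ((X a b t : Sp m F) : Matrix (I m) (I m) F) = Xm a b t) :
    (X a b (s + t) : Sp m F) = X a b s * X a b t := by
  apply Subtype.ext
  rw [Submonoid.coe_mul, X_val a b h, X_val a b h, X_val a b h, Xm_add a b h]

theorem X_inv (a b : I m) (t : F)
    (X_val : ∀ (a b : I m), a ≠ b → ∀ t : F,
      ((X a b t : Sp m F) : Matrix (I m) (I m) F) = Xm a b t) :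
    (X a b t : Sp m F)⁻¹ = X a b (-t) := by
  by_cases h : a = b
  · subst h
    rw [X_self, X_self, inv_one]
  · rw [inv_eq_iff_mul_eq_one, ← X_add a b h t (-t) X_val, add_neg_cancel, X_zero]

theorem X_inj (a b : I m) (h : a ≠ b) (s t : F) (hst : (X a b s : Sp m F) = X a b t)
    (X_val : ∀ (a b : I m), a ≠ b → ∀ t : F,
      ((X a b t : Sp m F) : Matrix (I m) (I m) F) = Xm a b t) : s = t := by
  have h1 := congrArg (fun g : Sp m F => (g : Matrix (I m) (I m) F) a b) hst
  simp only [X_val a b h, Xm_apply a b h] at h1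
  exact h1

theorem X_sym (a b : I m) (h : ab a ≠ ab b) (t : F)
    (X_val : ∀ (a b : I m), a ≠ b → ∀ t : F,
      ((X a b t : Sp m F) : Matrix (I m) (I m) F) = Xm a b t) :
    (X a b t : Sp m F) = X (ng b) (ng a) (-(sg F a * sg F b * t)) := by
  have h1 : a ≠ b := fun e => h (congrArg ab e)
  have h2 : ng b ≠ ng a := fun e => h1 (ng_inj e).symm
  apply Subtype.ext
  rw [X_val a b h1, X_val _ _ h2, Xm_sym a b h]

theorem X_pow (a b : I m) (h : a ≠ b) (t : F) (k : ℕ)
    (X_val : ∀ (a b : I m), a ≠ b → ∀ t : F,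
      ((X a b t : Sp m F) : Matrix (I m) (I m) F) = Xm a b t) :
    (X a b t : Sp m F) ^ k = X a b (k * t) := by
  induction k with
  | zero => rw [pow_zero, Nat.cast_zero, zero_mul, X_zero]
  | succ k ih =>
    rw [pow_succ, ih, ← X_add a b h _ _ X_val]
    congr 1
    push_cast
    ring

end Cfsg.Agent.Lib.Helper36SpXbasic
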