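import Cfsg.Agent.Lib.Helper43SpDefs

set_option autoImplicit false
set_option linter.unusedSimpArgs false

namespace Cfsg.Agent.Lib.Helper39SpXchain

open Matrix Cfsg.Agent.Lib.Helper43St Cfsg.Agent.Lib.Helper43Sp

variable {m : ℕ} {F : Type*} [Field F]

theorem ng_ne (a : I m) : ng a ≠ a := by
  rcases a with a | a <;> simp [ng]

theorem ab_ng (a : I m) : ab (ng a) = ab a := by
  rcases a with a | a <;> simp [ng, ab]

theorem ng_ng (a : I m) : ng (ng a) = a := by
  rcases a with a | a <;> simp [ng]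

theorem sg_mul_self (a : I m) : sg F a * sg F a = 1 := by
  rcases a with a | a <;> simp [sg]

theorem ne_of_ab {a b : I m} (h : ab a ≠ ab b) : a ≠ b := fun e => h (by rw [e])

theorem ne_ng_of_ab {a b : I m} (h : ab a ≠ ab b) : a ≠ ng b := fun e => h (by rw [e, ab_ng])

theorem ng_ne_of_ab {a b : I m} (h : ab a ≠ ab b) : ng a ≠ b := fun e => h (by rw [← e, ab_ng])

theorem ng_ne_ng_of_ab {a b : I m} (h : ab a ≠ ab b) : ng a ≠ ng b :=
  fun e => h (by rw [← ab_ng a, e, ab_ng])

theorem Xm_short (a b : I m) (h : ab a ≠ ab b) (t : F) :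
    Xm a b t = 1 + Matrix.single a b t - Matrix.single (ng b) (ng a) (sg F a * sg F b * t) := by
  unfold Xm
  rw [if_neg (ne_ng_of_ab (Ne.symm h))]

-- piece `xchain`
theorem X_chain (a b c : I m) (hab : ab a ≠ ab b) (hbc : ab b ≠ ab c) (hac : ab a ≠ ab c) (s t : F)
    (X_val : ∀ (a b : I m) (_ : a ≠ b) (t : F),
      ((X a b t : Sp m F) : Matrix (I m) (I m) F) = Xm a b t)
    (X_inv : ∀ (a b : I m) (t : F), (X a b t : Sp m F)⁻¹ = X a b (-t)) :
    (X a b s : Sp m F) * X b c t * (X a b s)⁻¹ * (X b c t)⁻¹ = X a c (s * t) := by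
  apply Subtype.ext
  rw [X_inv, X_inv]
  simp only [MulMemClass.coe_mul, X_val _ _ (ne_of_ab hab), X_val _ _ (ne_of_ab hbc),
    X_val _ _ (ne_of_ab hac), Xm_short _ _ hab, Xm_short _ _ hbc, Xm_short _ _ hac]
  have e1 := ne_of_ab hab
  have e2 := ne_of_ab hbc
  have e3 := ne_of_ab hac
  have e4 := ne_ng_of_ab hab
  have e5 := ne_ng_of_ab hbc
  have e6 := ne_ng_of_ab hac
  have e7 := ng_ne_of_ab hab
  have e8 := ng_ne_of_ab hbc
  have e9 := ng_ne_of_ab hac
  have e10 := ng_ne_ng_of_ab hab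
  have e11 := ng_ne_ng_of_ab hbc
  have e12 := ng_ne_ng_of_ab hac
  have n1 := ng_ne a
  have n2 := ng_ne b
  have n3 := ng_ne c
  simp only [mul_add, add_mul, mul_sub, sub_mul, mul_one, one_mul, Matrix.single_mul_single_same,
    Matrix.single_mul_single_of_ne, ne_eq, e1, e2, e3, e4, e5, e6, e7, e8, e9, e10, e11, e12, n1, n2, n3,
    e1.symm, e2.symm, e3.symm, e4.symm, e5.symm, e6.symm, e7.symm, e8.symm, e9.symm, e10.symm,
    e11.symm, e12.symm, n1.symm, n2.symm, n3.symm, not_false_eq_true, sub_zero, add_zero, zero_add,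
    zero_sub, mul_zero, zero_mul]
  have hb : sg F b * sg F c * t * (sg F a * sg F b * -s) = -(sg F a * sg F c * (s * t)) := by
    linear_combination (-(sg F a * sg F c * (s * t))) * sg_mul_self (F := F) b
  rw [hb]
  have key : ∀ (i j : I m) (x : F), Matrix.single i j x = x • Matrix.single i j (1 : F) := by
    intro i j x
    rw [Matrix.smul_single, smul_eq_mul, mul_one]
  rw [key a b s, key _ _ (sg F a * sg F b * s), key b c t, key a c (s * t),
    key _ _ (sg F b * sg F c * t), key a b (-s), key _ _ (sg F a * sg F b * -s),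
    key _ _ (-(sg F a * sg F c * (s * t))), key b c (-t), key a c (s * -t), key a c (-s * -t),
    key _ _ (sg F b * sg F c * -t), key _ _ (sg F a * sg F c * (s * t))]
  module

end Cfsg.Agent.Lib.Helper39SpXchain
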