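import Cfsg.Agent.Lib.Helper43SpDefs
import Cfsg.Agent.Lib.Helper84SpXval

set_option autoImplicit false
set_option linter.unusedSimpArgs false

/-! Project 243, piece `xcomm`. -/

namespace Cfsg.Agent.Lib.Helper84SpXcomm

open Matrix Cfsg.Agent.Lib.Helper43St Cfsg.Agent.Lib.Helper43Sp Cfsg.Agent.Lib.Helper84SpXval

variable {m : ℕ} {F : Type*} [Field F]

-- piece `xcomm`
theorem X_comm (a b c d : I m) (hab : a ≠ b) (hcd : c ≠ d) (h1 : b ≠ c) (h2 : a ≠ d)
    (h3 : b ≠ ng d) (h4 : a ≠ ng c) (s t : F) : Commute (X a b s : Sp m F) (X c d t) := by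
  apply Subtype.ext
  change ((X a b s : Sp m F) : Matrix (I m) (I m) F) * ((X c d t : Sp m F) : Matrix (I m) (I m) F)
    = ((X c d t : Sp m F) : Matrix (I m) (I m) F) * ((X a b s : Sp m F) : Matrix (I m) (I m) F)
  rw [X_val a b hab, X_val c d hcd, Xm_eq, Xm_eq]
  generalize (if b = ng a then 0 else sg F a * sg F b * s) = κ
  generalize (if d = ng c then 0 else sg F c * sg F d * t) = l
  have g1 : ng a ≠ c := fun e => h4 (ng_eq_iff.1 e)
  have g2 : ng a ≠ ng d := fun e => h2 (ng_inj.1 e)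
  have g3 : d ≠ a := h2.symm
  have g4 : d ≠ ng b := fun e => h3 (ng_eq_iff.1 e.symm)
  have g5 : ng c ≠ a := fun e => h4 e.symm
  have g6 : ng c ≠ ng b := fun e => h1 (ng_inj.1 e).symm
  simp only [add_mul, sub_mul, mul_sub, mul_add, one_mul, mul_one,
      Matrix.single_mul_single_of_ne _ _ _ _ h1, Matrix.single_mul_single_of_ne _ _ _ _ h3,
      Matrix.single_mul_single_of_ne _ _ _ _ g1, Matrix.single_mul_single_of_ne _ _ _ _ g2,
      Matrix.single_mul_single_of_ne _ _ _ _ g3, Matrix.single_mul_single_of_ne _ _ _ _ g4,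
      Matrix.single_mul_single_of_ne _ _ _ _ g5, Matrix.single_mul_single_of_ne _ _ _ _ g6]
  abel

end Cfsg.Agent.Lib.Helper84SpXcomm
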