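import Cfsg.Agent.Lib.Helper43SpDefs2
import Cfsg.Agent.Lib.Helper84SpXval
import Cfsg.Agent.Lib.Helper84SpXcomm
import Cfsg.Agent.Lib.Helper36SpXbasic
import Cfsg.Agent.Lib.Helper36SpPmval
import Cfsg.Agent.Lib.Helper36SpPmx
import Cfsg.Agent.Lib.Helper39SpXchain
import Cfsg.Agent.Lib.Helper1SpEhw

set_option autoImplicit false
set_option linter.unusedVariables false

/-! Project 243, piece `eker`. -/

namespace Cfsg.Agent.Lib.Helper1SpEker

open Matrix Cfsg.Agent.Lib.Helper43BP Cfsg.Agent.Lib.Helper43St Cfsg.Agent.Lib.Helper43Sp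
open Cfsg.Agent.Lib.Helper1SpEhw

section basics

variable {m : ℕ} {F : Type*} [Field F]

theorem PMX (σ : Equiv.Perm (Fin m)) (a b : I m) (h : a ≠ b) (t : F) :
    (PM F σ : Sp m F) * X a b t * (PM F σ)⁻¹ = X (pmI σ a) (pmI σ b) t :=
  Cfsg.Agent.Lib.Helper36SpPmx.PM_X σ a b h t
    (fun a b h t => Cfsg.Agent.Lib.Helper84SpXval.X_val a b h t)

theorem Xchain (a b c : I m) (hab : ab a ≠ ab b) (hbc : ab b ≠ ab c) (hac : ab a ≠ ab c) (s t : F) :
    (X a b s : Sp m F) * X b c t * (X a b s)⁻¹ * (X b c t)⁻¹ = X a c (s * t) :=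
  Cfsg.Agent.Lib.Helper39SpXchain.X_chain a b c hab hbc hac s t
    (fun a b h t => Cfsg.Agent.Lib.Helper84SpXval.X_val a b h t)
    (fun a b t => Cfsg.Agent.Lib.Helper36SpXbasic.X_inv a b t
      (fun a b h t => Cfsg.Agent.Lib.Helper84SpXval.X_val a b h t))

theorem cmw_eq_one {G : Type*} [Group G] {x y : G} (h : Commute x y) : cmw x y = 1 :=
  commutatorElement_eq_one_iff_commute.mpr h

theorem v1 : ((1 : Fin (m + 3)) : ℕ) = 1 := by
  show 1 % (m + 3) = 1
  exact Nat.mod_eq_of_lt (by omega)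

theorem v2 : ((2 : Fin (m + 3)) : ℕ) = 2 := by
  show 2 % (m + 3) = 2
  exact Nat.mod_eq_of_lt (by omega)

theorem v3 (hm : m ≠ 0) : ((3 : Fin (m + 3)) : ℕ) = 3 := by
  show 3 % (m + 3) = 3
  exact Nat.mod_eq_of_lt (by omega)

theorem n01 : (0 : Fin (m + 3)) ≠ 1 := fun h => by
  have := congrArg Fin.val h
  rw [v1] at this
  simp at this

theorem n02 : (0 : Fin (m + 3)) ≠ 2 := fun h => by
  have := congrArg Fin.val h
  rw [v2] at this
  simp at this

theorem n12 : (1 : Fin (m + 3)) ≠ 2 := fun h => by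
  have := congrArg Fin.val h
  rw [v1, v2] at this
  simp at this

theorem n03 (hm : m ≠ 0) : (0 : Fin (m + 3)) ≠ 3 := fun h => by
  have := congrArg Fin.val h
  rw [v3 hm] at this
  simp at this

theorem n13 (hm : m ≠ 0) : (1 : Fin (m + 3)) ≠ 3 := fun h => by
  have := congrArg Fin.val h
  rw [v1, v3 hm] at this
  simp at this

theorem n23 (hm : m ≠ 0) : (2 : Fin (m + 3)) ≠ 3 := fun h => by
  have := congrArg Fin.val h
  rw [v2, v3 hm] at this
  simp at this

theorem E_vv (E : Sp 2 F →* Sp (m + 3) F)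
    (hE : ∀ g, ((E g : Sp (m + 3) F) : Matrix (I (m + 3)) (I (m + 3)) F) = Em 0 1 g.1) :
    E (vv F) = X (Sum.inl 0) (Sum.inl 1) 1 := by
  unfold vv
  rw [E_X E hE _ _ (by simp)]
  rfl

theorem E_long (E : Sp 2 F →* Sp (m + 3) F)
    (hE : ∀ g, ((E g : Sp (m + 3) F) : Matrix (I (m + 3)) (I (m + 3)) F) = Em 0 1 g.1) (t : F) :
    E (X (Sum.inl 0) (Sum.inr 0) t) = X (Sum.inl 0) (Sum.inr 0) t ∧
    E (X (Sum.inr 0) (Sum.inl 0) t) = X (Sum.inr 0) (Sum.inl 0) t := by
  constructor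
  · rw [E_X E hE _ _ (by simp)]
    rfl
  · rw [E_X E hE _ _ (by simp)]
    rfl

/-- an element commuting with the two long root groups at `0` commutes with `E g`, `g ∈ gl`. -/
theorem comm_gl (E : Sp 2 F →* Sp (m + 3) F)
    (hE : ∀ g, ((E g : Sp (m + 3) F) : Matrix (I (m + 3)) (I (m + 3)) F) = Em 0 1 g.1)
    (y : Sp (m + 3) F) (h1 : ∀ t : F, Commute y (X (Sum.inl 0) (Sum.inr 0) t))
    (h2 : ∀ t : F, Commute y (X (Sum.inr 0) (Sum.inl 0) t)) (ζ : F) (g : Sp 2 F)
    (hg : g ∈ gl F ζ) : Commute y (E g) := by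
  have hw : ∀ u : F, Commute y (E (wX (Sum.inl 0) (Sum.inr 0) u)) := by
    intro u
    unfold wX
    rw [map_mul, map_mul, (E_long E hE _).1, (E_long E hE _).2]
    exact ((h1 _).mul_right (h2 _)).mul_right (h1 _)
  unfold gl at hg
  simp only [Finset.mem_insert, Finset.mem_singleton] at hg
  rcases hg with rfl | rfl | rfl
  · rw [(E_long E hE _).1]
    exact h1 _
  · unfold hX
    rw [map_mul, map_inv]
    exact (hw _).mul_right (hw _).inv_right
  · exact hw _

end basics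

variable (m : ℕ) (F : Type*) [Field F] (a1 a2 b1 b2 c1 c2 : Equiv.Perm (Fin (m + 3))) (ζ : F)

-- piece `eker`
theorem relS_ker (hζ : ζ ≠ 0) (ha1 : a1 ∈ alternatingGroup (Fin (m + 3)))
    (ha2 : a2 ∈ alternatingGroup (Fin (m + 3))) (hb1 : b1 0 = 0) (hb2 : b2 0 = 0)
    (hc1 : c1 0 = 0 ∧ c1 1 = 1) (hc2 : c2 0 = 0 ∧ c2 1 = 1)
    (pm : Equiv.Perm (Fin (m + 3)) →* Sp (m + 3) F) (hpm : ∀ σ, pm σ = PM F σ)
    (E : Sp 2 F →* Sp (m + 3) F)
    (hE : ∀ g, ((E g : Sp (m + 3) F) : Matrix (I (m + 3)) (I (m + 3)) F) = Em 0 1 g.1) :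
    ∀ z ∈ relS m F a1 a2 b1 b2 c1 c2 ζ, fS m F pm E z = 1 := by
  classical
  intro z hz
  have hhw := fS_hw m F pm hpm E hE
  have hvv := E_vv E hE
  -- conjugates of `v`
  have hcj : ∀ σ : Equiv.Perm (Fin (m + 3)),
      fS m F pm E (cjw (hw F σ) (jr (vv F))) = X (Sum.inl (σ 0)) (Sum.inl (σ 1)) 1 := by
    intro σ
    unfold cjw
    rw [map_mul, map_mul, map_inv, hhw, fS_jr, hvv, PMX _ _ _ (fun h => n01 (Sum.inl.inj h))]
    rfl
  unfold relS at hz
  simp only [Finset.mem_union] at hz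
  rcases hz with (((((h | h) | h) | h) | h) | h) | h
  · -- R1
    obtain ⟨a, ha, rfl⟩ := Finset.mem_image.mp h
    have haA : a ∈ alternatingGroup (Fin (m + 3)) := by
      simp only [Finset.mem_insert, Finset.mem_singleton] at ha
      rcases ha with rfl | rfl
      · exact ha1
      · exact ha2
    have hsA : Equiv.swap 0 1 * a * Equiv.swap 0 1 ∈ alternatingGroup (Fin (m + 3)) := by
      rw [Equiv.Perm.mem_alternatingGroup] at haA ⊢
      rw [map_mul, map_mul, haA, Equiv.Perm.sign_swap n01]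
      simp
    unfold cjw
    rw [map_mul, map_mul, map_mul, map_inv, map_inv, fS_jr, fS_aw pm E a haA, fS_aw pm E _ hsA,
      E_PM E hE, ← hpm, ← map_inv pm, Equiv.swap_inv, ← map_mul, ← map_mul, mul_inv_cancel]
  · -- R2
    obtain ⟨⟨b, g⟩, hbg, rfl⟩ := Finset.mem_image.mp h
    rw [Finset.mem_product] at hbg
    obtain ⟨hb, hg⟩ := hbg
    have hb0 : b 0 = 0 := by
      simp only [Finset.mem_insert, Finset.mem_singleton] at hb
      rcases hb with rfl | rfl
      · exact hb1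
      · exact hb2
    simp only [cmw, map_mul, map_inv, hhw, fS_jr]
    apply cmw_eq_one
    apply comm_gl E hE _ _ _ ζ g hg
    · intro t
      have := PMX b (Sum.inl 0) (Sum.inr 0) (by simp) t
      have e : (X (pmI b (Sum.inl 0)) (pmI b (Sum.inr 0)) t : Sp (m + 3) F)
          = X (Sum.inl 0) (Sum.inr 0) t := by
        show (X (Sum.inl (b 0)) (Sum.inr (b 0)) t : Sp (m + 3) F) = _
        rw [hb0]
      rw [e] at this
      exact mul_inv_eq_iff_eq_mul.mp this
    · intro t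
      have := PMX b (Sum.inr 0) (Sum.inl 0) (by simp) t
      have e : (X (pmI b (Sum.inr 0)) (pmI b (Sum.inl 0)) t : Sp (m + 3) F)
          = X (Sum.inr 0) (Sum.inl 0) t := by
        show (X (Sum.inr (b 0)) (Sum.inl (b 0)) t : Sp (m + 3) F) = _
        rw [hb0]
      rw [e] at this
      exact mul_inv_eq_iff_eq_mul.mp this
  · -- R3
    obtain ⟨c, hc, rfl⟩ := Finset.mem_image.mp h
    have hc01 : c 0 = 0 ∧ c 1 = 1 := by
      simp only [Finset.mem_insert, Finset.mem_singleton] at hc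
      rcases hc with rfl | rfl
      · exact hc1
      · exact hc2
    have h1 := hcj c
    rw [hc01.1, hc01.2] at h1
    unfold cjw at h1
    unfold cmw
    rw [map_mul, h1, map_inv, fS_jr, hvv, mul_inv_cancel]
  · -- R4
    obtain ⟨g, hg, rfl⟩ := Finset.mem_image.mp h
    simp only [cmw, cjw, map_mul, map_inv, hhw, fS_jr, hvv]
    apply cmw_eq_one
    -- `y = P⁻¹ v P = X e2 e1 1`
    have hy : (PM F (Equiv.swap 0 2) : Sp (m + 3) F) * X (Sum.inl 2) (Sum.inl 1) 1
        * (PM F (Equiv.swap 0 2))⁻¹ = X (Sum.inl 0) (Sum.inl 1) 1 := by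
      rw [PMX _ _ _ (fun h => n12 (Sum.inl.inj h).symm)]
      show (X (Sum.inl (Equiv.swap 0 2 2)) (Sum.inl (Equiv.swap 0 2 1)) 1 : Sp (m + 3) F) = _
      rw [Equiv.swap_apply_right, Equiv.swap_apply_of_ne_of_ne n01.symm n12]
    have hc : Commute (X (Sum.inl 2) (Sum.inl 1) (1 : F) : Sp (m + 3) F) (E g) := by
      apply comm_gl E hE _ _ _ ζ g hg
      · intro t
        apply Cfsg.Agent.Lib.Helper84SpXcomm.X_comm
        · exact fun h => n12 (Sum.inl.inj h).symm
        · simp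
        · exact fun h => n01 (Sum.inl.inj h).symm
        · simp
        · exact fun h => n01 (Sum.inl.inj h).symm
        · simp [ng]
      · intro t
        apply Cfsg.Agent.Lib.Helper84SpXcomm.X_comm
        · exact fun h => n12 (Sum.inl.inj h).symm
        · simp
        · simp
        · exact fun h => n02 (Sum.inl.inj h).symm
        · simp [ng]
        · exact fun h => n02 (Sum.inl.inj h).symm
    rw [← hy]
    have := hc.symm
    show _ * _ = _ * _
    calc PM F (Equiv.swap 0 2) * E g * (PM F (Equiv.swap 0 2))⁻¹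
          * (PM F (Equiv.swap 0 2) * X (Sum.inl 2) (Sum.inl 1) 1 * (PM F (Equiv.swap 0 2))⁻¹)
        = PM F (Equiv.swap 0 2) * (E g * X (Sum.inl 2) (Sum.inl 1) 1)
          * (PM F (Equiv.swap 0 2))⁻¹ := by group
      _ = PM F (Equiv.swap 0 2) * (X (Sum.inl 2) (Sum.inl 1) 1 * E g)
          * (PM F (Equiv.swap 0 2))⁻¹ := by rw [this.eq]
      _ = _ := by group
  · -- R5
    split_ifs at h with hm
    · simp at h
    · rw [Finset.mem_singleton] at h
      subst h
      have h1 := hcj (Equiv.swap 0 2 * Equiv.swap 1 3)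
      have e0 : (Equiv.swap 0 2 * Equiv.swap 1 3 : Equiv.Perm (Fin (m + 3))) 0 = 2 := by
        rw [Equiv.Perm.mul_apply, Equiv.swap_apply_of_ne_of_ne n01 (n03 hm),
          Equiv.swap_apply_left]
      have e1 : (Equiv.swap 0 2 * Equiv.swap 1 3 : Equiv.Perm (Fin (m + 3))) 1 = 3 := by
        rw [Equiv.Perm.mul_apply, Equiv.swap_apply_left,
          Equiv.swap_apply_of_ne_of_ne (n03 hm).symm (n23 hm).symm]
      rw [e0, e1] at h1
      unfold cmw
      rw [map_mul, map_mul, map_mul, map_inv, map_inv, h1, fS_jr, hvv]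
      apply cmw_eq_one
      apply Cfsg.Agent.Lib.Helper84SpXcomm.X_comm
      · exact fun h => n01 (Sum.inl.inj h)
      · exact fun h => n23 hm (Sum.inl.inj h)
      · exact fun h => n12 (Sum.inl.inj h)
      · exact fun h => n03 hm (Sum.inl.inj h)
      · simp [ng]
      · simp [ng]
  · -- R6
    rw [Finset.mem_singleton] at h
    subst h
    have h1 := hcj (c3 0 1 2)
    have e0 : (c3 0 1 2 : Equiv.Perm (Fin (m + 3))) 0 = 1 := by
      unfold c3
      rw [Equiv.Perm.mul_apply, Equiv.swap_apply_of_ne_of_ne n01 n02, Equiv.swap_apply_left]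
    have e1 : (c3 0 1 2 : Equiv.Perm (Fin (m + 3))) 1 = 2 := by
      unfold c3
      rw [Equiv.Perm.mul_apply, Equiv.swap_apply_left,
        Equiv.swap_apply_of_ne_of_ne n02.symm n12.symm]
    rw [e0, e1] at h1
    have h2 := hcj (Equiv.swap 1 2)
    rw [Equiv.swap_apply_of_ne_of_ne n01 n02, Equiv.swap_apply_left] at h2
    unfold cmw
    rw [map_mul, map_mul, map_mul, map_mul, map_inv, map_inv, map_inv, h1, h2, fS_jr, hvv,
      Xchain (Sum.inl 0) (Sum.inl 1) (Sum.inl 2) n01 n12 n02, mul_one, mul_inv_cancel]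
  · -- R7
    rw [Finset.mem_singleton] at h
    subst h
    have h2 := hcj (Equiv.swap 1 2)
    rw [Equiv.swap_apply_of_ne_of_ne n01 n02, Equiv.swap_apply_left] at h2
    unfold cmw
    rw [map_mul, map_mul, map_mul, map_inv, map_inv, h2, fS_jr, hvv]
    apply cmw_eq_one
    apply Cfsg.Agent.Lib.Helper84SpXcomm.X_comm
    · exact fun h => n01 (Sum.inl.inj h)
    · exact fun h => n02 (Sum.inl.inj h)
    · exact fun h => n01 (Sum.inl.inj h).symm
    · exact fun h => n02 (Sum.inl.inj h)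
    · simp [ng]
    · simp [ng]

end Cfsg.Agent.Lib.Helper1SpEker
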