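import Cfsg.Agent.Lib.Helper43SpDefs2
import Cfsg.Agent.Lib.Helper11BPKof
import Cfsg.Agent.Lib.Helper1SpEhw
import Cfsg.Agent.Lib.Helper1SpEker

set_option autoImplicit false
set_option linter.unusedVariables false

/-! Project 243, piece `egc`. -/

namespace Cfsg.Agent.Lib.Helper1SpEgc

open Matrix Cfsg.Agent.Lib.Helper43BP Cfsg.Agent.Lib.Helper43St Cfsg.Agent.Lib.Helper43Sp
open Cfsg.Agent.Lib.Helper1SpEhw Cfsg.Agent.Lib.Helper1SpEker

theorem commute_of_cmw {G : Type*} [Group G] {x y : G} (h : cmw x y = 1) : Commute x y :=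
  commutatorElement_eq_one_iff_commute.mp h

/-- a permutation fixing `0`, `1` with prescribed values at `2`, `3`. -/
theorem exists_fix01 {m : ℕ} (hm : m ≠ 0) (i j : Fin (m + 3)) (hij : i ≠ j) (hi0 : i ≠ 0)
    (hi1 : i ≠ 1) (hj0 : j ≠ 0) (hj1 : j ≠ 1) :
    ∃ ρ : Equiv.Perm (Fin (m + 3)), ρ 0 = 0 ∧ ρ 1 = 1 ∧ ρ 2 = i ∧ ρ 3 = j := by
  obtain ⟨j', hj'⟩ : ∃ j', j' = Equiv.swap 2 i j := ⟨_, rfl⟩
  have hj'0 : j' ≠ 0 := by
    intro h
    have h1 : Equiv.swap 2 i j = Equiv.swap 2 i 0 := by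
      rw [← hj', h, Equiv.swap_apply_of_ne_of_ne n02 hi0.symm]
    exact hj0 ((Equiv.swap 2 i).injective h1)
  have hj'1 : j' ≠ 1 := by
    intro h
    have h1 : Equiv.swap 2 i j = Equiv.swap 2 i 1 := by
      rw [← hj', h, Equiv.swap_apply_of_ne_of_ne n12 hi1.symm]
    exact hj1 ((Equiv.swap 2 i).injective h1)
  have hj'2 : j' ≠ 2 := by
    intro h
    have h1 : Equiv.swap 2 i j = Equiv.swap 2 i i := by
      rw [← hj', h, Equiv.swap_apply_right]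
    exact hij ((Equiv.swap 2 i).injective h1).symm
  refine ⟨Equiv.swap 2 i * Equiv.swap 3 j', ?_, ?_, ?_, ?_⟩
  · rw [Equiv.Perm.mul_apply, Equiv.swap_apply_of_ne_of_ne (n03 hm) hj'0.symm,
      Equiv.swap_apply_of_ne_of_ne n02 hi0.symm]
  · rw [Equiv.Perm.mul_apply, Equiv.swap_apply_of_ne_of_ne (n13 hm) hj'1.symm,
      Equiv.swap_apply_of_ne_of_ne n12 hi1.symm]
  · rw [Equiv.Perm.mul_apply, Equiv.swap_apply_of_ne_of_ne (n23 hm) hj'2.symm,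
      Equiv.swap_apply_left]
  · rw [Equiv.Perm.mul_apply, Equiv.swap_apply_left, hj', Equiv.swap_apply_self]

variable (m : ℕ) (F : Type*) [Field F] (a1 a2 b1 b2 c1 c2 : Equiv.Perm (Fin (m + 3))) (ζ : F)

theorem gc_aux (N : Subgroup (CQ m F)) [N.Normal]
    (hrel : ∀ z ∈ relS m F a1 a2 b1 b2 c1 c2 ζ, z ∈ N)
    (hζ : ∀ (a : I 2) (t : F), ab a = 0 → X a (ng a) t ∈ Subgroup.closure (↑(gl F ζ) : Set (Sp 2 F)))
    (hb : ∀ σ : Equiv.Perm (Fin (m + 3)), σ 0 = 0 →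
      σ ∈ Subgroup.closure ({b1, b2} : Set (Equiv.Perm (Fin (m + 3)))))
    (hc : ∀ σ : Equiv.Perm (Fin (m + 3)), σ 0 = 0 → σ 1 = 1 →
      σ ∈ Subgroup.closure ({c1, c2} : Set (Equiv.Perm (Fin (m + 3)))))
    (θ : Equiv.Perm (Fin (m + 3)) →* (CQ m F ⧸ N))
    (hθ : ∀ σ, θ σ = QuotientGroup.mk (hw F σ))
    (pm : Equiv.Perm (Fin (m + 3)) →* Sp (m + 3) F) (hpm : ∀ σ, pm σ = PM F σ)
    (E : Sp 2 F →* Sp (m + 3) F)
    (hE : ∀ g, ((E g : Sp (m + 3) F) : Matrix (I (m + 3)) (I (m + 3)) F) = Em 0 1 g.1)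
    (hNk : ∀ z ∈ N, fS m F pm E z = 1) :
    ∃ G : GC m F (CQ m F ⧸ N), ∀ z, G.π (QuotientGroup.mk z) = fS m F pm E z := by
  classical
  let ι : Sp 2 F →* (CQ m F ⧸ N) := (QuotientGroup.mk' N).comp Monoid.Coprod.inr
  have hι : ∀ g, ι g = QuotientGroup.mk (jr g) := fun g => rfl
  let π : (CQ m F ⧸ N) →* Sp (m + 3) F := QuotientGroup.lift N (fS m F pm E) hNk
  have hπ : ∀ z, π (QuotientGroup.mk z) = fS m F pm E z := fun z => rfl
  have hone : ∀ z ∈ relS m F a1 a2 b1 b2 c1 c2 ζ, (QuotientGroup.mk z : CQ m F ⧸ N) = 1 :=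
    fun z hz => (QuotientGroup.eq_one_iff z).mpr (hrel z hz)
  -- the relators
  have r2 : ∀ b ∈ ({b1, b2} : Set (Equiv.Perm (Fin (m + 3)))), ∀ g ∈ (↑(gl F ζ) : Set (Sp 2 F)),
      Commute (θ b) (ι g) := by
    intro b hb' g hg
    apply commute_of_cmw
    have hmem : cmw (hw F b) (jr g) ∈ relS m F a1 a2 b1 b2 c1 c2 ζ := by
      unfold relS
      simp only [Finset.mem_union]
      refine Or.inl (Or.inl (Or.inl (Or.inl (Or.inl (Or.inr ?_)))))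
      refine Finset.mem_image.mpr ⟨(b, g), Finset.mem_product.mpr ⟨?_, hg⟩, rfl⟩
      simpa using hb'
    have := hone _ hmem
    rw [hθ, hι]
    exact this
  have r3 : ∀ c ∈ ({c1, c2} : Set (Equiv.Perm (Fin (m + 3)))), ∀ g ∈ ({vv F} : Set (Sp 2 F)),
      Commute (θ c) (ι g) := by
    intro c hc' g hg
    rw [Set.mem_singleton_iff] at hg
    subst hg
    apply commute_of_cmw
    have hmem : cmw (hw F c) (jr (vv F)) ∈ relS m F a1 a2 b1 b2 c1 c2 ζ := by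
      unfold relS
      simp only [Finset.mem_union]
      refine Or.inl (Or.inl (Or.inl (Or.inl (Or.inr ?_))))
      refine Finset.mem_image.mpr ⟨c, ?_, rfl⟩
      simpa using hc'
    have := hone _ hmem
    rw [hθ, hι]
    exact this
  have r4 : ∀ g ∈ (↑(gl F ζ) : Set (Sp 2 F)), ∀ g' ∈ ({vv F} : Set (Sp 2 F)),
      Commute (((MulAut.conj (θ (Equiv.swap 0 2))).toMonoidHom.comp ι) g) (ι g') := by
    intro g hg g' hg'
    rw [Set.mem_singleton_iff] at hg'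
    subst hg'
    apply commute_of_cmw
    have hmem : cmw (cjw (hw F (Equiv.swap 0 2)) (jr g)) (jr (vv F))
        ∈ relS m F a1 a2 b1 b2 c1 c2 ζ := by
      unfold relS
      simp only [Finset.mem_union]
      refine Or.inl (Or.inl (Or.inl (Or.inr ?_)))
      exact Finset.mem_image.mpr ⟨g, hg, rfl⟩
    have := hone _ hmem
    show cmw (θ (Equiv.swap 0 2) * ι g * (θ (Equiv.swap 0 2))⁻¹) (ι (vv F)) = 1
    rw [hθ, hι, hι]
    exact this
  have r5 : m ≠ 0 → Commute (ι (vv F)) (θ (Equiv.swap 0 2 * Equiv.swap 1 3) * ι (vv F) *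
      (θ (Equiv.swap 0 2 * Equiv.swap 1 3))⁻¹) := by
    intro hm
    apply commute_of_cmw
    have hmem : cmw (jr (vv F)) (cjw (hw F (Equiv.swap 0 2 * Equiv.swap 1 3)) (jr (vv F)))
        ∈ relS m F a1 a2 b1 b2 c1 c2 ζ := by
      unfold relS
      simp only [Finset.mem_union]
      refine Or.inl (Or.inl (Or.inr ?_))
      rw [if_neg hm]
      exact Finset.mem_singleton_self _
    have := hone _ hmem
    rw [hθ, hι]
    exact this
  have r6 : cmw (ι (vv F)) (θ (c3 0 1 2) * ι (vv F) * (θ (c3 0 1 2))⁻¹) *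
      (θ (Equiv.swap 1 2) * ι (vv F) * (θ (Equiv.swap 1 2))⁻¹)⁻¹ = 1 := by
    have hmem : cmw (jr (vv F)) (cjw (hw F (c3 0 1 2)) (jr (vv F))) *
        (cjw (hw F (Equiv.swap 1 2)) (jr (vv F)))⁻¹ ∈ relS m F a1 a2 b1 b2 c1 c2 ζ := by
      unfold relS
      simp only [Finset.mem_union]
      refine Or.inl (Or.inr ?_)
      exact Finset.mem_singleton_self _
    have := hone _ hmem
    rw [hθ, hθ, hι]
    exact this
  have r7 : Commute (ι (vv F)) (θ (Equiv.swap 1 2) * ι (vv F) * (θ (Equiv.swap 1 2))⁻¹) := by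
    apply commute_of_cmw
    have hmem : cmw (jr (vv F)) (cjw (hw F (Equiv.swap 1 2)) (jr (vv F)))
        ∈ relS m F a1 a2 b1 b2 c1 c2 ζ := by
      unfold relS
      simp only [Finset.mem_union]
      refine Or.inr ?_
      exact Finset.mem_singleton_self _
    have := hone _ hmem
    rw [hθ, hι]
    exact this
  have k3 : ∀ σ : Equiv.Perm (Fin (m + 3)), σ 0 = 0 → σ 1 = 1 → Commute (θ σ) (ι (vv F)) :=
    fun σ h0 h1 => Cfsg.Agent.Lib.Helper11BPKof.k2_of θ ι _ _ r3 σ (hc σ h0 h1) (vv F)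
      (Subgroup.subset_closure rfl)
  refine ⟨{ θ := θ, ι := ι, π := π, k1 := ?_, k2 := ?_, k3 := k3, k4 := ?_, k5 := ?_, k6 := ?_,
            k7 := r7, gen := ?_, hπθ := ?_, hπι := ?_ }, hπ⟩
  · -- k1
    rw [hθ, hι]
    have hodd : Equiv.swap (0 : Fin (m + 3)) 1 ∉ alternatingGroup (Fin (m + 3)) := by
      rw [Equiv.Perm.mem_alternatingGroup, Equiv.Perm.sign_swap n01]
      decide
    unfold hw
    rw [if_neg hodd, Equiv.swap_mul_self]
    have h1 : aw F (1 : Equiv.Perm (Fin (m + 3))) = 1 := by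
      unfold aw
      rw [dif_pos (Subgroup.one_mem _)]
      exact map_one _
    rw [h1, one_mul]
  · -- k2
    intro σ h0 a ha t
    exact Cfsg.Agent.Lib.Helper11BPKof.k2_of θ ι _ _ r2 σ (hb σ h0) _ (hζ a t ha)
  · -- k4
    intro a ha t
    exact Cfsg.Agent.Lib.Helper11BPKof.k2_of
      ((MulAut.conj (θ (Equiv.swap 0 2))).toMonoidHom.comp ι) ι _ _ r4 _ (hζ a t ha) (vv F)
      (Subgroup.subset_closure rfl)
  · -- k5
    intro σ h1 h2 h3 h4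
    have hne : σ 0 ≠ σ 1 := fun h => n01 (σ.injective h)
    have hm : m ≠ 0 := by
      rintro rfl
      apply hne
      have e0 : σ 0 = 2 := by
        generalize σ 0 = x at h1 h2
        fin_cases x
        · exact absurd rfl h1
        · exact absurd rfl h2
        · rfl
      have e1 : σ 1 = 2 := by
        generalize σ 1 = x at h3 h4
        fin_cases x
        · exact absurd rfl h3
        · exact absurd rfl h4
        · rfl
      rw [e0, e1]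
    obtain ⟨ρ, hρ0, hρ1, hρ2, hρ3⟩ := exists_fix01 hm (σ 0) (σ 1) hne h1 h2 h3 h4
    obtain ⟨ρ₀, hρ₀⟩ : ∃ ρ₀ : Equiv.Perm (Fin (m + 3)), ρ₀ = Equiv.swap 0 2 * Equiv.swap 1 3 :=
      ⟨_, rfl⟩
    have e0 : ρ₀ 0 = 2 := by
      rw [hρ₀, Equiv.Perm.mul_apply, Equiv.swap_apply_of_ne_of_ne n01 (n03 hm),
        Equiv.swap_apply_left]
    have e1 : ρ₀ 1 = 3 := by
      rw [hρ₀, Equiv.Perm.mul_apply, Equiv.swap_apply_left,
        Equiv.swap_apply_of_ne_of_ne (n03 hm).symm (n23 hm).symm]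
    obtain ⟨τ, hτ⟩ : ∃ τ : Equiv.Perm (Fin (m + 3)), τ = (ρ * ρ₀)⁻¹ * σ := ⟨_, rfl⟩
    have hτ0 : τ 0 = 0 := by
      rw [hτ, Equiv.Perm.mul_apply, Equiv.Perm.inv_eq_iff_eq, Equiv.Perm.mul_apply, e0, hρ2]
    have hτ1 : τ 1 = 1 := by
      rw [hτ, Equiv.Perm.mul_apply, Equiv.Perm.inv_eq_iff_eq, Equiv.Perm.mul_apply, e1, hρ3]
    have hσ : σ = ρ * ρ₀ * τ := by rw [hτ]; group
    have c1' := k3 τ hτ0 hτ1
    have c2' := k3 ρ hρ0 hρ1
    have c3' := r5 hm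
    rw [← hρ₀] at c3'
    have f1 : θ σ * ι (vv F) * (θ σ)⁻¹
        = θ ρ * (θ ρ₀ * ι (vv F) * (θ ρ₀)⁻¹) * (θ ρ)⁻¹ := by
      rw [hσ, map_mul, map_mul]
      have : θ τ * ι (vv F) * (θ τ)⁻¹ = ι (vv F) := by rw [c1'.eq, mul_inv_cancel_right]
      calc θ ρ * θ ρ₀ * θ τ * ι (vv F) * (θ ρ * θ ρ₀ * θ τ)⁻¹
          = θ ρ * (θ ρ₀ * (θ τ * ι (vv F) * (θ τ)⁻¹) * (θ ρ₀)⁻¹) * (θ ρ)⁻¹ := by group
        _ = _ := by rw [this]
    have f2 : ι (vv F) = θ ρ * ι (vv F) * (θ ρ)⁻¹ := by rw [c2'.eq, mul_inv_cancel_right]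
    rw [f1]
    conv_lhs => rw [f2]
    show _ * _ = _ * _
    calc θ ρ * ι (vv F) * (θ ρ)⁻¹ * (θ ρ * (θ ρ₀ * ι (vv F) * (θ ρ₀)⁻¹) * (θ ρ)⁻¹)
        = θ ρ * (ι (vv F) * (θ ρ₀ * ι (vv F) * (θ ρ₀)⁻¹)) * (θ ρ)⁻¹ := by group
      _ = θ ρ * ((θ ρ₀ * ι (vv F) * (θ ρ₀)⁻¹) * ι (vv F)) * (θ ρ)⁻¹ := by rw [c3'.eq]
      _ = _ := by group
  · -- k6
    exact mul_inv_eq_one.mp r6
  · -- gen
    rw [eq_top_iff]
    have h1 : (⊤ : Subgroup (CQ m F ⧸ N)) = (⊤ : Subgroup (CQ m F)).map (QuotientGroup.mk' N) := by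
      rw [← MonoidHom.range_eq_map, MonoidHom.range_eq_top.mpr (QuotientGroup.mk'_surjective N)]
    rw [h1, ← Monoid.Coprod.closure_range_inl_union_inr, MonoidHom.map_closure,
      Subgroup.closure_le]
    rintro _ ⟨z, (⟨a, rfl⟩ | ⟨g, rfl⟩), rfl⟩
    · apply Subgroup.subset_closure
      left
      refine ⟨a.1, ?_⟩
      rw [hθ]
      unfold hw aw
      rw [if_pos a.2, dif_pos a.2]
      rfl
    · apply Subgroup.subset_closure
      right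
      exact ⟨g, rfl⟩
  · -- hπθ
    intro σ
    rw [hθ, hπ, fS_hw m F pm hpm E hE]
  · -- hπι
    intro g
    rw [hι, hπ, fS_jr, hE]

-- piece `egc`
theorem relS_gc
    (hζ : ∀ (a : I 2) (t : F), ab a = 0 → X a (ng a) t ∈ Subgroup.closure (↑(gl F ζ) : Set (Sp 2 F)))
    (hb : ∀ σ : Equiv.Perm (Fin (m + 3)), σ 0 = 0 →
      σ ∈ Subgroup.closure ({b1, b2} : Set (Equiv.Perm (Fin (m + 3)))))
    (hc : ∀ σ : Equiv.Perm (Fin (m + 3)), σ 0 = 0 → σ 1 = 1 →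
      σ ∈ Subgroup.closure ({c1, c2} : Set (Equiv.Perm (Fin (m + 3)))))
    (θ : Equiv.Perm (Fin (m + 3)) →*
        (CQ m F ⧸ Subgroup.normalClosure (↑(relS m F a1 a2 b1 b2 c1 c2 ζ) : Set (CQ m F))))
    (hθ : ∀ σ, θ σ = QuotientGroup.mk (hw F σ))
    (pm : Equiv.Perm (Fin (m + 3)) →* Sp (m + 3) F) (hpm : ∀ σ, pm σ = PM F σ)
    (E : Sp 2 F →* Sp (m + 3) F)
    (hE : ∀ g, ((E g : Sp (m + 3) F) : Matrix (I (m + 3)) (I (m + 3)) F) = Em 0 1 g.1)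
    (hker : ∀ z ∈ relS m F a1 a2 b1 b2 c1 c2 ζ, fS m F pm E z = 1) :
    ∃ G : GC m F (CQ m F ⧸ Subgroup.normalClosure (↑(relS m F a1 a2 b1 b2 c1 c2 ζ) : Set (CQ m F))),
      ∀ z, G.π (QuotientGroup.mk z) = fS m F pm E z := by
  apply gc_aux m F a1 a2 b1 b2 c1 c2 ζ _ (fun z hz => Subgroup.subset_normalClosure hz) hζ hb hc θ hθ
    pm hpm E hE
  intro z hz
  have hle : Subgroup.normalClosure (↑(relS m F a1 a2 b1 b2 c1 c2 ζ) : Set (CQ m F))
      ≤ (fS m F pm E).ker := Subgroup.normalClosure_le_normal (fun z hz => hker z hz)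
  exact hle hz

end Cfsg.Agent.Lib.Helper1SpEgc
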