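import Cfsg.Agent.Lib.Helper43SpDefs
import Cfsg.Agent.Lib.Helper36SpXbasic

set_option autoImplicit false

/-! Project 243, piece `tIIa`. -/

namespace Cfsg.Agent.Lib.Helper1SptIIa

open Matrix Cfsg.Agent.Lib.Helper43St Cfsg.Agent.Lib.Helper43Sp

variable {m : ℕ} {F : Type*} [Field F]

theorem eq_zero_or_one [Fintype F] (h2 : Fintype.card F = 2) (t : F) : t = 0 ∨ t = 1 := by
  classical
  by_cases ht : t = 0
  · exact Or.inl ht
  right
  have hc : Fintype.card Fˣ = 1 := by rw [Fintype.card_units, h2]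
  have hs : Subsingleton Fˣ := Fintype.card_le_one_iff_subsingleton.mp hc.le
  have := congrArg Units.val (Subsingleton.elim (Units.mk0 t ht) 1)
  simpa using this

theorem full_of_one [Fintype F] (h2 : Fintype.card F = 2) (K : Subgroup (Sp m F)) (a b : I m)
    (h : X a b (1 : F) ∈ K) : Full K a b := by
  intro t
  rcases eq_zero_or_one h2 t with rfl | rfl
  · rw [Cfsg.Agent.Lib.Helper36SpXbasic.X_zero]
    exact K.one_mem
  · exact h

-- piece `tIIa`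
theorem caseII_top [Fintype F] (h2 : Fintype.card F = 2) (K : Subgroup (Sp (m + 3) F))
    (hc : cx (m + 3) F ∈ K) (hv : X (Sum.inl 0) (Sum.inl 1) (1 : F) ∈ K)
    (hω : X (Sum.inl 2) (Sum.inr 2) (1 : F) * X (Sum.inr 2) (Sum.inl 2) 1 ∈ K)
    (short_all : ∀ (K : Subgroup (Sp (m + 3) F)), cx (m + 3) F ∈ K → ∀ a : I (m + 3),
      Full K a (gam a) → ∀ b c : I (m + 3), ab b ≠ ab c → Full K b c)
    (long_all : ∀ (K : Subgroup (Sp (m + 3) F)), cx (m + 3) F ∈ K → ∀ a : I (m + 3),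
      Full K a (ng a) → ∀ b : I (m + 3), Full K b (ng b))
    (top_of_full : ∀ (K : Subgroup (Sp (m + 3) F)),
      (∀ b c : I (m + 3), ab b ≠ ab c → Full K b c) → (∀ b : I (m + 3), Full K b (ng b)) → K = ⊤)
    (X_comm : ∀ (a b c d : I (m + 3)), a ≠ b → c ≠ d → b ≠ c → a ≠ d → b ≠ ng d → a ≠ ng c →
      ∀ s t : F, Commute (X a b s : Sp (m + 3) F) (X c d t))
    (X_s4' : ∀ (a b : I (m + 3)), ab a ≠ ab b → ∀ s t : F,
      (X b (ng b) t : Sp (m + 3) F) * X a b s * (X b (ng b) t)⁻¹ =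
        X a b s * X a (ng b) (-(s * t)) * X a (ng a) (sg F a * sg F b * s ^ 2 * t)) : K = ⊤ := by
  have hg : gam (Sum.inl 0 : I (m + 3)) = Sum.inl 1 := by
    simp only [gam]
    rw [dif_pos (by simp)]
    rfl
  have hshort : ∀ b c : I (m + 3), ab b ≠ ab c → Full K b c := by
    apply short_all K hc (Sum.inl 0)
    rw [hg]
    exact full_of_one h2 K _ _ hv
  have h02 : (0 : Fin (m + 3)) ≠ 2 := by
    intro h
    have := congrArg Fin.val h
    have h3 : ((2 : Fin (m + 3)) : ℕ) = 2 := by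
      show 2 % (m + 3) = 2
      exact Nat.mod_eq_of_lt (by omega)
    rw [h3] at this
    simp at this
  have hab : ab (Sum.inl 0 : I (m + 3)) ≠ ab (Sum.inl 2 : I (m + 3)) := h02
  have hab' : ab (Sum.inl 0 : I (m + 3)) ≠ ab (Sum.inr 2 : I (m + 3)) := h02
  have hcm : Commute (X (Sum.inr 2) (Sum.inl 2) (1 : F) : Sp (m + 3) F)
      (X (Sum.inl 0) (Sum.inl 2) 1) := by
    apply X_comm
    · simp
    · intro h
      exact h02 (Sum.inl.inj h)
    · intro h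
      exact h02 (Sum.inl.inj h).symm
    · simp
    · simp [ng]
    · intro h
      exact h02 (Sum.inr.inj h).symm
  have hs4 := X_s4' (Sum.inl 0) (Sum.inl 2) hab 1 1
  have hng2 : ng (Sum.inl 2 : I (m + 3)) = Sum.inr 2 := rfl
  have hng0 : ng (Sum.inl 0 : I (m + 3)) = Sum.inr 0 := rfl
  rw [hng2] at hs4
  have hconj : (X (Sum.inl 2) (Sum.inr 2) (1 : F) * X (Sum.inr 2) (Sum.inl 2) 1 : Sp (m + 3) F)
      * X (Sum.inl 0) (Sum.inl 2) 1 * (X (Sum.inl 2) (Sum.inr 2) (1 : F)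
        * X (Sum.inr 2) (Sum.inl 2) 1 : Sp (m + 3) F)⁻¹
      = X (Sum.inl 2) (Sum.inr 2) (1 : F) * X (Sum.inl 0) (Sum.inl 2) 1
        * (X (Sum.inl 2) (Sum.inr 2) (1 : F) : Sp (m + 3) F)⁻¹ := by
    rw [_root_.mul_inv_rev, mul_assoc (X (Sum.inl 2) (Sum.inr 2) (1 : F) : Sp (m + 3) F), hcm.eq]
    group
  have hmem : (X (Sum.inl 0) (Sum.inl 2) (1 : F) * X (Sum.inl 0) (Sum.inr 2) (-(1 * 1))
      * X (Sum.inl 0) (ng (Sum.inl 0)) (sg F (Sum.inl 0 : I (m + 3)) * sg F (Sum.inl 2 : I (m + 3))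
        * 1 ^ 2 * 1) : Sp (m + 3) F) ∈ K := by
    rw [← hs4, ← hconj]
    exact K.mul_mem (K.mul_mem hω (hshort _ _ hab 1)) (K.inv_mem hω)
  have hmem2 : (X (Sum.inl 0) (ng (Sum.inl 0)) (sg F (Sum.inl 0 : I (m + 3))
      * sg F (Sum.inl 2 : I (m + 3)) * 1 ^ 2 * 1) : Sp (m + 3) F) ∈ K := by
    have h1 : (X (Sum.inl 0) (Sum.inl 2) (1 : F) * X (Sum.inl 0) (Sum.inr 2) (-(1 * 1))
      : Sp (m + 3) F) ∈ K := K.mul_mem (hshort _ _ hab 1) (hshort _ _ hab' _)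
    exact (Subgroup.mul_mem_cancel_left K h1).mp hmem
  have hone : sg F (Sum.inl 0 : I (m + 3)) * sg F (Sum.inl 2 : I (m + 3)) * 1 ^ 2 * 1 = 1 := by
    simp [sg]
  rw [hone] at hmem2
  exact top_of_full K hshort (long_all K hc (Sum.inl 0) (full_of_one h2 K _ _ hmem2))

end Cfsg.Agent.Lib.Helper1SptIIa
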