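import Mathlib

set_option autoImplicit false

/-! Project 243, piece `tcoprime`. -/

namespace Cfsg.Agent.Lib.Helper65Sptcoprime

theorem mem_zpowers_of_coprime {G : Type*} [Group G] (g h : G) (hc : Commute g h) (r s : ℕ)
    (hg : g ^ r = 1) (hh : h ^ s = 1) (hrs : Nat.Coprime r s) :
    g ∈ Subgroup.zpowers (g * h) ∧ h ∈ Subgroup.zpowers (g * h) := by
  have h1 : (g * h) ^ s = g ^ s := by rw [hc.mul_pow, hh, mul_one]
  have h2 : (g * h) ^ r = h ^ r := by rw [hc.mul_pow, hg, one_mul]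
  have hb : (r : ℤ) * Nat.gcdA r s + s * Nat.gcdB r s = 1 := by
    have := Nat.gcd_eq_gcd_ab r s
    rw [hrs] at this
    exact_mod_cast this.symm
  constructor
  · refine ⟨s * Nat.gcdB r s, ?_⟩
    show (g * h) ^ ((s : ℤ) * Nat.gcdB r s) = g
    rw [zpow_mul, zpow_natCast, h1]
    calc (g ^ s) ^ (Nat.gcdB r s) = g ^ ((r : ℤ) * Nat.gcdA r s + s * Nat.gcdB r s) := by
          rw [zpow_add, zpow_mul, zpow_natCast, hg, one_zpow, one_mul, zpow_mul, zpow_natCast]
      _ = g := by rw [hb, zpow_one]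
  · refine ⟨r * Nat.gcdA r s, ?_⟩
    show (g * h) ^ ((r : ℤ) * Nat.gcdA r s) = h
    rw [zpow_mul, zpow_natCast, h2]
    calc (h ^ r) ^ (Nat.gcdA r s) = h ^ ((r : ℤ) * Nat.gcdA r s + s * Nat.gcdB r s) := by
          rw [zpow_add, zpow_mul, zpow_natCast, zpow_mul (a := h) (m := (s : ℤ)), zpow_natCast, hh, one_zpow,
            mul_one]
      _ = h := by rw [hb, zpow_one]

end Cfsg.Agent.Lib.Helper65Sptcoprime
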