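import Cfsg.Agent.Lib.Helper43SpDefs
import Cfsg.Agent.Lib.Helper36SpXbasic
import Cfsg.Agent.Lib.Helper84SpXval
import Cfsg.Agent.Lib.Helper65Sptcoprime
import Cfsg.Agent.Lib.Helper1SptIIa

set_option autoImplicit false
set_option linter.unusedSimpArgs false

/-! Project 243, piece `tIIb`. -/

namespace Cfsg.Agent.Lib.Helper1SptIIb

open Matrix Cfsg.Agent.Lib.Helper43St Cfsg.Agent.Lib.Helper43Sp

variable {m : ℕ} {F : Type*} [Field F]

/-- the abstract computation: `((1 + A)(1 + B))³ = 1` in characteristic two. -/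
theorem cube_eq_one {R : Type*} [Ring R] (A B : R) (h2 : (2 : R) = 0) (hAA : A * A = 0)
    (hBB : B * B = 0) (hABA : A * B * A = A) (hBAB : B * A * B = B) :
    ((1 + A) * (1 + B)) ^ 3 = 1 := by
  have hx : ∀ x : R, x + x = 0 := fun x => by rw [← two_mul, h2, zero_mul]
  have a1 : ∀ x : R, A * (A * x) = 0 := fun x => by rw [← mul_assoc, hAA, zero_mul]
  have b1 : ∀ x : R, B * (B * x) = 0 := fun x => by rw [← mul_assoc, hBB, zero_mul]
  have a2 : A * (B * A) = A := by rw [← mul_assoc, hABA]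
  have b2 : B * (A * B) = B := by rw [← mul_assoc, hBAB]
  have a3 : ∀ x : R, A * (B * (A * x)) = A * x := fun x => by
    rw [← mul_assoc, ← mul_assoc, hABA]
  have b3 : ∀ x : R, B * (A * (B * x)) = B * x := fun x => by
    rw [← mul_assoc, ← mul_assoc, hBAB]
  have hW : (1 + A) * (1 + B) = 1 + A + B + A * B := by noncomm_ring
  have hW2 : (1 + A + B + A * B) * (1 + A + B + A * B) = 1 + A + B + B * A := by
    have e : (1 + A + B + A * B) * (1 + A + B + A * B)
        = 1 + A + B + B * A + ((A + A) + (B + B) + (A * B + A * B) + (A * B + A * B)) := by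
      simp only [mul_add, add_mul, mul_one, one_mul, mul_assoc, hAA, hBB, a1, b1, a2, b2, a3, b3,
        mul_zero, zero_mul, add_zero, zero_add]
      abel
    simp only [e, hx, add_zero]
  have hW3 : (1 + A + B + B * A) * (1 + A + B + A * B) = 1 := by
    have e : (1 + A + B + B * A) * (1 + A + B + A * B)
        = 1 + ((A + A) + (B + B) + (B + B) + (A * B + A * B) + (B * A + B * A)) := by
      simp only [mul_add, add_mul, mul_one, one_mul, mul_assoc, hAA, hBB, a1, b1, a2, b2, a3, b3,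
        mul_zero, zero_mul, add_zero, zero_add]
      abel
    simp only [e, hx, add_zero]
  rw [hW, pow_succ, pow_two, hW2, hW3]

theorem two_eq_zero' [Fintype F] (h2 : Fintype.card F = 2) : (2 : F) = 0 := by
  rcases Cfsg.Agent.Lib.Helper1SptIIa.eq_zero_or_one h2 (2 : F) with h | h
  · exact h
  · exfalso
    have : (1 : F) = 0 := by linear_combination h
    exact one_ne_zero this

/-- `ω³ = 1` -/
theorem omega_cube [Fintype F] (h2 : Fintype.card F = 2) (i : Fin m) :
    (X (Sum.inl i) (Sum.inr i) (1 : F) * X (Sum.inr i) (Sum.inl i) 1 : Sp m F) ^ 3 = 1 := by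
  apply Subtype.ext
  rw [SubmonoidClass.coe_pow, Submonoid.coe_mul,
    Cfsg.Agent.Lib.Helper84SpXval.X_val _ _ (by simp),
    Cfsg.Agent.Lib.Helper84SpXval.X_val _ _ (by simp)]
  have e1 : Xm (Sum.inl i : I m) (Sum.inr i) (1 : F) = 1 + Matrix.single (Sum.inl i) (Sum.inr i) 1 := by
    rw [Xm, if_pos (show (Sum.inr i : I m) = ng (Sum.inl i) from rfl)]
  have e2 : Xm (Sum.inr i : I m) (Sum.inl i) (1 : F) = 1 + Matrix.single (Sum.inr i) (Sum.inl i) 1 := by
    rw [Xm, if_pos (show (Sum.inl i : I m) = ng (Sum.inr i) from rfl)]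
  rw [e1, e2]
  have h2M : (2 : Matrix (I m) (I m) F) = 0 := by
    have : (2 : Matrix (I m) (I m) F) = (2 : F) • (1 : Matrix (I m) (I m) F) := by
      rw [two_smul, one_add_one_eq_two]
    rw [this, two_eq_zero' h2, zero_smul]
  exact cube_eq_one _ _ h2M (by simp) (by simp) (by simp) (by simp)

-- piece `tIIb`
theorem caseII [Fintype F] (h2 : Fintype.card F = 2)
    (short_all : ∀ (K : Subgroup (Sp (m + 3) F)), cx (m + 3) F ∈ K → ∀ a : I (m + 3),
      Full K a (gam a) → ∀ b c : I (m + 3), ab b ≠ ab c → Full K b c)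
    (long_all : ∀ (K : Subgroup (Sp (m + 3) F)), cx (m + 3) F ∈ K → ∀ a : I (m + 3),
      Full K a (ng a) → ∀ b : I (m + 3), Full K b (ng b))
    (top_of_full : ∀ (K : Subgroup (Sp (m + 3) F)),
      (∀ b c : I (m + 3), ab b ≠ ab c → Full K b c) → (∀ b : I (m + 3), Full K b (ng b)) → K = ⊤)
    (X_comm : ∀ (a b c d : I (m + 3)), a ≠ b → c ≠ d → b ≠ c → a ≠ d → b ≠ ng d → a ≠ ng c →
      ∀ s t : F, Commute (X a b s : Sp (m + 3) F) (X c d t))
    (X_s4' : ∀ (a b : I (m + 3)), ab a ≠ ab b → ∀ s t : F,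
      (X b (ng b) t : Sp (m + 3) F) * X a b s * (X b (ng b) t)⁻¹ =
        X a b s * X a (ng b) (-(s * t)) * X a (ng a) (sg F a * sg F b * s ^ 2 * t)) :
    ∃ a b : Sp (m + 3) F, Subgroup.closure ({a, b} : Set (Sp (m + 3) F)) = ⊤ := by
  have v2 : ((2 : Fin (m + 3)) : ℕ) = 2 := by
    show 2 % (m + 3) = 2
    exact Nat.mod_eq_of_lt (by omega)
  have v1 : ((1 : Fin (m + 3)) : ℕ) = 1 := by
    show 1 % (m + 3) = 1
    exact Nat.mod_eq_of_lt (by omega)
  have h01 : (0 : Fin (m + 3)) ≠ 1 := by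
    intro h
    have := congrArg Fin.val h
    rw [v1] at this
    simp at this
  have h12 : (1 : Fin (m + 3)) ≠ 2 := by
    intro h
    have := congrArg Fin.val h
    rw [v1, v2] at this
    simp at this
  obtain ⟨v, hv⟩ : ∃ v : Sp (m + 3) F, v = X (Sum.inl 0) (Sum.inl 1) (1 : F) := ⟨_, rfl⟩
  obtain ⟨ω, hω⟩ : ∃ ω : Sp (m + 3) F,
    ω = X (Sum.inl 2) (Sum.inr 2) (1 : F) * X (Sum.inr 2) (Sum.inl 2) 1 := ⟨_, rfl⟩
  have hv2 : v ^ 2 = 1 := by
    rw [hv, Cfsg.Agent.Lib.Helper36SpXbasic.X_pow _ _ (fun h => h01 (Sum.inl.inj h)) _ _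
      (fun a b h t => Cfsg.Agent.Lib.Helper84SpXval.X_val a b h t)]
    have : ((2 : ℕ) : F) * 1 = 0 := by
      rw [mul_one, Nat.cast_ofNat, two_eq_zero' h2]
    rw [this, Cfsg.Agent.Lib.Helper36SpXbasic.X_zero]
  have hω3 : ω ^ 3 = 1 := by
    rw [hω]
    exact omega_cube h2 2
  have hcomm : Commute v ω := by
    rw [hv, hω]
    apply Commute.mul_right
    · apply X_comm
      · exact fun h => h01 (Sum.inl.inj h)
      · simp
      · exact fun h => h12 (Sum.inl.inj h)
      · simp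
      · exact fun h => h12 (Sum.inl.inj h)
      · simp [ng]
    · apply X_comm
      · exact fun h => h01 (Sum.inl.inj h)
      · simp
      · simp
      · intro h
        have := congrArg Fin.val (Sum.inl.inj h)
        rw [v2] at this
        simp at this
      · simp [ng]
      · intro h
        have := congrArg Fin.val (Sum.inl.inj h)
        rw [v2] at this
        simp at this
  obtain ⟨m1, m2⟩ := Cfsg.Agent.Lib.Helper65Sptcoprime.mem_zpowers_of_coprime v ω hcomm 2 3 hv2 hω3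
    (by norm_num)
  refine ⟨v * ω, cx (m + 3) F, ?_⟩
  have hle : Subgroup.zpowers (v * ω) ≤
      Subgroup.closure ({v * ω, cx (m + 3) F} : Set (Sp (m + 3) F)) := by
    rw [Subgroup.zpowers_le]
    exact Subgroup.subset_closure (by simp)
  exact Cfsg.Agent.Lib.Helper1SptIIa.caseII_top h2 _ (Subgroup.subset_closure (by simp))
    (hv ▸ hle m1) (hω ▸ hle m2) short_all long_all top_of_full X_comm X_s4'

end Cfsg.Agent.Lib.Helper1SptIIb
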