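import Cfsg.Agent.Lib.Helper43R1Defs

set_option autoImplicit false

/-! Project 143, piece `r1key`. -/

namespace Cfsg.Agent.Lib.Helper36StR1key

open Matrix Cfsg.Agent.Lib.Helper43R1 Cfsg.Agent.Lib.Helper43P3

variable {K : Type*} [Field K] {P : Type*} [Group P] (R : R1 K P)

theorem x_zero' : R.x 0 = 1 := by
  have h := R.xadd 0 0
  rw [add_zero] at h
  exact mul_eq_left.1 h.symm

theorem y_zero' : R.y 0 = 1 := by
  have h := R.yadd 0 0
  rw [add_zero] at h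
  exact mul_eq_left.1 h.symm

theorem x_neg' (t : K) : (R.x t)⁻¹ = R.x (-t) := by
  apply inv_eq_of_mul_eq_one_right
  rw [← R.xadd, add_neg_cancel, x_zero']

theorem y_neg' (t : K) : (R.y t)⁻¹ = R.y (-t) := by
  apply inv_eq_of_mul_eq_one_right
  rw [← R.yadd, add_neg_cancel, y_zero']

theorem w_inv' (t : K) : (R.w t)⁻¹ = R.w (-t) := by
  unfold R1.w
  rw [_root_.mul_inv_rev, _root_.mul_inv_rev, x_neg', y_neg', inv_neg, mul_assoc]

theorem w_x' (t u : K) (ht : t ≠ 0) : R.w t * R.x u * (R.w t)⁻¹ = R.y (-(t⁻¹ ^ 2 * u)) :=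
  R.bx t u ht

theorem w_y' (t v : K) (ht : t ≠ 0) : R.w t * R.y v * (R.w t)⁻¹ = R.x (-(t ^ 2 * v)) := by
  have h := w_x' R (-t) (-(t ^ 2 * v)) (neg_ne_zero.2 ht)
  have e : -((-t)⁻¹ ^ 2 * -(t ^ 2 * v)) = v := by
    field_simp
  rw [e, ← w_inv'] at h
  rw [← h]
  group

/-- `x(-c) w(c) x(-c) = y(-c⁻¹)` -/
theorem xwx (c : K) : R.x (-c) * R.w c * R.x (-c) = R.y (-c⁻¹) := by
  unfold R1.w
  rw [← x_neg']
  group

theorem w_key (a b : K) (ha : a ≠ 0) (hb : b ≠ 0) (hab : a + b ≠ 0) :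
    R.w (-(a ^ 2 / (a + b))) * R.w a * R.w b = R.w (a * b / (a + b)) := by
  set c := a * b / (a + b) with hc
  set c' := -(a ^ 2 / (a + b)) with hc'
  set v' := b ^ 2 / (a + b) with hv'
  have e1 : R.w a * R.x (-a + -b) = R.y (-c'⁻¹) * R.w a := by
    have h := w_x' R a (-a + -b) ha
    have e : -(a⁻¹ ^ 2 * (-a + -b)) = -c'⁻¹ := by
      rw [hc']
      field_simp
      ring
    rw [e] at h
    rw [← h]
    group
  have e2 : R.y (-c'⁻¹) = R.x (-c') * R.w c' * R.x (-c') := (xwx R c').symm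
  have e3 : R.x (-c') * (R.w a * R.w b) = (R.w a * R.w b) * R.x v' := by
    have h1 := w_x' R b v' hb
    have h2 := w_y' R a (-(b⁻¹ ^ 2 * v')) ha
    have e : -(a ^ 2 * -(b⁻¹ ^ 2 * v')) = -c' := by
      rw [hc', hv']
      field_simp
    rw [e, ← h1] at h2
    rw [← h2]
    group
  have e4 : R.x (-a) * R.x (-c') = R.x (-c) := by
    rw [← R.xadd]
    congr 1
    rw [hc, hc']
    field_simp
    ring
  have e5 : R.x v' * R.x (-b) = R.x (-c) := by
    rw [← R.xadd]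
    congr 1
    rw [hc, hv']
    field_simp
    ring
  have e6 : R.x (-c) * R.w c * R.x (-c) = R.y (-a⁻¹) * R.y (-b⁻¹) := by
    rw [xwx, ← R.yadd]
    congr 1
    rw [hc]
    field_simp
    ring
  have e7 : R.y (-a⁻¹) = R.x (-a) * R.w a * R.x (-a) := (xwx R a).symm
  have e7' : R.y (-b⁻¹) = R.x (-b) * R.w b * R.x (-b) := (xwx R b).symm
  have e8 : R.x (-a) * R.x (-b) = R.x (-a + -b) := (R.xadd _ _).symm
  have key : R.x (-c) * R.w c * R.x (-c) = R.x (-c) * (R.w c' * R.w a * R.w b) * R.x (-c) := by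
    calc R.x (-c) * R.w c * R.x (-c)
        = R.x (-a) * R.w a * R.x (-a) * (R.x (-b) * R.w b * R.x (-b)) := by rw [e6, e7, e7']
      _ = R.x (-a) * (R.w a * (R.x (-a) * R.x (-b))) * R.w b * R.x (-b) := by group
      _ = R.x (-a) * (R.x (-c') * R.w c' * R.x (-c') * R.w a) * R.w b * R.x (-b) := by
          rw [e8, e1, e2]
      _ = (R.x (-a) * R.x (-c')) * R.w c' * (R.x (-c') * (R.w a * R.w b)) * R.x (-b) := by group
      _ = R.x (-c) * R.w c' * ((R.w a * R.w b) * R.x v') * R.x (-b) := by rw [e4, e3]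
      _ = R.x (-c) * (R.w c' * R.w a * R.w b) * (R.x v' * R.x (-b)) := by group
      _ = R.x (-c) * (R.w c' * R.w a * R.w b) * R.x (-c) := by rw [e5]
  have k1 := mul_right_cancel key
  exact (mul_left_cancel k1).symm

end Cfsg.Agent.Lib.Helper36StR1key
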