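import Cfsg.Agent.Lib.Helper43R1Defs

set_option autoImplicit false

/-! Project 143, piece `r1inj`. -/

namespace Cfsg.Agent.Lib.Helper57StR1inj

open Matrix Cfsg.Agent.Lib.Helper43R1 Cfsg.Agent.Lib.Helper43P3

variable {K : Type*} [Field K] {P : Type*} [Group P] (R : R1 K P)

private theorem x_zero' : R.x 0 = 1 := by
  have h := R.xadd 0 0
  rw [add_zero] at h
  exact (mul_eq_left.mp h.symm)

private theorem mem_U {g : P} (hg : g ∈ R.U) : ∃ a, g = R.x a := by
  unfold R1.U at hg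
  induction hg using Subgroup.closure_induction with
  | mem y hy => obtain ⟨a, rfl⟩ := hy; exact ⟨a, rfl⟩
  | one => exact ⟨0, (x_zero' R).symm⟩
  | mul y z _ _ hy hz =>
    obtain ⟨a, rfl⟩ := hy
    obtain ⟨b, rfl⟩ := hz
    exact ⟨a + b, (R.xadd a b).symm⟩
  | inv y _ hy =>
    obtain ⟨a, rfl⟩ := hy
    refine ⟨-a, ?_⟩
    rw [inv_eq_iff_mul_eq_one, ← R.xadd, add_neg_cancel, x_zero']

private theorem h_one' : R.h 1 = 1 := by
  unfold R1.h
  exact mul_inv_cancel _

private theorem mem_H (hmul : ∀ t u : K, t ≠ 0 → u ≠ 0 → R.h (t * u) = R.h t * R.h u)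
    {g : P} (hg : g ∈ R.H) : ∃ t, t ≠ 0 ∧ g = R.h t := by
  unfold R1.H at hg
  induction hg using Subgroup.closure_induction with
  | mem y hy => exact hy
  | one => exact ⟨1, one_ne_zero, (h_one' R).symm⟩
  | mul y z _ _ hy hz =>
    obtain ⟨a, ha, rfl⟩ := hy
    obtain ⟨b, hb, rfl⟩ := hz
    exact ⟨a * b, mul_ne_zero ha hb, (hmul a b ha hb).symm⟩
  | inv y _ hy =>
    obtain ⟨a, ha, rfl⟩ := hy
    refine ⟨a⁻¹, inv_ne_zero ha, ?_⟩
    rw [inv_eq_iff_mul_eq_one, ← hmul a a⁻¹ ha (inv_ne_zero ha), mul_inv_cancel₀ ha, h_one']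

theorem r1_injective [Finite K] (hg : R.Gen) (π : P →* SpecialLinearGroup (Fin 2) K)
    (hx : ∀ t, ((π (R.x t) : SpecialLinearGroup (Fin 2) K) : Matrix (Fin 2) (Fin 2) K) = !![1, t; 0, 1])
    (hy : ∀ t, ((π (R.y t) : SpecialLinearGroup (Fin 2) K) : Matrix (Fin 2) (Fin 2) K) = !![1, 0; t, 1])
    (h_mul : ∀ t u : K, t ≠ 0 → u ≠ 0 → R.h (t * u) = R.h t * R.h u)
    (inC_all : ∀ g : P, InC R.U R.H ({1, R.w 1} : Set P) g) :
    Function.Injective π := by
  have hw : ∀ t : K, t ≠ 0 →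
      ((π (R.w t) : SpecialLinearGroup (Fin 2) K) : Matrix (Fin 2) (Fin 2) K) = !![0, t; -t⁻¹, 0] := by
    intro t ht
    unfold R1.w
    rw [map_mul, map_mul, Matrix.SpecialLinearGroup.coe_mul, Matrix.SpecialLinearGroup.coe_mul, hx, hy]
    ext i j
    fin_cases i <;> fin_cases j <;> simp [Matrix.mul_apply, Fin.sum_univ_two, ht]
  have hh : ∀ t : K, t ≠ 0 →
      ((π (R.h t) : SpecialLinearGroup (Fin 2) K) : Matrix (Fin 2) (Fin 2) K) = !![t, 0; 0, t⁻¹] := by
    intro t ht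
    have e1 : R.h t * R.w 1 = R.w t := by
      unfold R1.h
      rw [inv_mul_cancel_right]
    have e2 : ((π (R.h t) : SpecialLinearGroup (Fin 2) K) : Matrix (Fin 2) (Fin 2) K) *
        !![0, 1; -1, 0] = !![0, t; -t⁻¹, 0] := by
      have := congrArg (fun z => ((π z : SpecialLinearGroup (Fin 2) K) : Matrix (Fin 2) (Fin 2) K)) e1
      simp only [map_mul, Matrix.SpecialLinearGroup.coe_mul] at this
      rw [hw 1 one_ne_zero, hw t ht] at this
      simpa using this
    have e3 : (!![0, 1; -1, 0] : Matrix (Fin 2) (Fin 2) K) * !![0, -1; 1, 0] = 1 := by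
      ext i j
      fin_cases i <;> fin_cases j <;> simp [Matrix.mul_apply, Fin.sum_univ_two]
    calc ((π (R.h t) : SpecialLinearGroup (Fin 2) K) : Matrix (Fin 2) (Fin 2) K)
        = ((π (R.h t) : SpecialLinearGroup (Fin 2) K) : Matrix (Fin 2) (Fin 2) K) *
            (!![0, 1; -1, 0] * !![0, -1; 1, 0]) := by rw [e3, mul_one]
      _ = !![0, t; -t⁻¹, 0] * !![0, -1; 1, 0] := by rw [← mul_assoc, e2]
      _ = !![t, 0; 0, t⁻¹] := by
        ext i j
        fin_cases i <;> fin_cases j <;> simp [Matrix.mul_apply, Fin.sum_univ_two]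
  rw [injective_iff_map_eq_one]
  intro g hg1
  obtain ⟨y1, h1, η, hη, w, hw', y2, h2, rfl⟩ := inC_all g
  obtain ⟨a, rfl⟩ := mem_U R h1
  obtain ⟨b, rfl⟩ := mem_U R h2
  obtain ⟨t, ht, rfl⟩ := mem_H R h_mul hη
  have hm := congrArg (fun z : SpecialLinearGroup (Fin 2) K => (z : Matrix (Fin 2) (Fin 2) K)) hg1
  simp only [map_mul, Matrix.SpecialLinearGroup.coe_mul, Matrix.SpecialLinearGroup.coe_one] at hm
  rcases hw' with rfl | hw'
  · rw [map_one, Matrix.SpecialLinearGroup.coe_one, hx, hx, hh t ht] at hm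
    have h00 := congrFun (congrFun hm 0) 0
    have h01 := congrFun (congrFun hm 0) 1
    simp [Matrix.mul_apply, Fin.sum_univ_two] at h00 h01
    subst h00
    simp at h01
    rw [h_one', mul_one, mul_one, ← R.xadd]
    have : a + b = 0 := by linear_combination h01
    rw [this, x_zero']
  · rw [Set.mem_singleton_iff] at hw'
    subst hw'
    rw [hx, hx, hh t ht, hw 1 one_ne_zero] at hm
    have h10 := congrFun (congrFun hm 1) 0
    simp [Matrix.mul_apply, Fin.sum_univ_two] at h10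
    exact absurd h10 ht

end Cfsg.Agent.Lib.Helper57StR1inj
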