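import Cfsg.Agent.Lib.Helper43R1Defs

set_option autoImplicit false

/-! Project 143, piece `r1comm`: the `h(t)` commute (K finite).  `c_central` (piece `r1cent`) is an extra hypothesis. -/

namespace Cfsg.Agent.Lib.Helper72StR1comm

open Cfsg.Agent.Lib.Helper43R1

variable {K : Type*} [Field K] {P : Type*} [Group P] (R : R1 K P)

theorem h_comm [Finite K] (hg : R.Gen) (t u : K) (ht : t ≠ 0) (hu : u ≠ 0)
    (c_central : ∀ t u : K, t ≠ 0 → u ≠ 0 →
      R.h t * R.h u * (R.h (t * u))⁻¹ ∈ Subgroup.center P) :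
    Commute (R.h t) (R.h u) := by
  obtain ⟨ζ, hζ⟩ := IsCyclic.exists_monoid_generator (α := Kˣ)
  have key : ∀ k : ℕ, ∃ z ∈ Subgroup.center P, R.h ((ζ : K) ^ k) = z * R.h (ζ : K) ^ k := by
    intro k
    induction k with
    | zero =>
      refine ⟨1, Subgroup.one_mem _, ?_⟩
      simp [R1.h]
    | succ k ih =>
      obtain ⟨z, hz, hk⟩ := ih
      have hc := c_central ((ζ : K) ^ k) (ζ : K) (pow_ne_zero _ ζ.ne_zero) ζ.ne_zero
      refine ⟨(R.h ((ζ : K) ^ k) * R.h (ζ : K) * (R.h ((ζ : K) ^ k * (ζ : K)))⁻¹)⁻¹ * z,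
        Subgroup.mul_mem _ (Subgroup.inv_mem _ hc) hz, ?_⟩
      rw [pow_succ, pow_succ]
      have : (R.h ((ζ : K) ^ k) * R.h (ζ : K) * (R.h ((ζ : K) ^ k * (ζ : K)))⁻¹)⁻¹ * z *
          (R.h (ζ : K) ^ k * R.h (ζ : K))
          = (R.h ((ζ : K) ^ k) * R.h (ζ : K) * (R.h ((ζ : K) ^ k * (ζ : K)))⁻¹)⁻¹ *
            ((z * R.h (ζ : K) ^ k) * R.h (ζ : K)) := by group
      rw [this, ← hk]
      group
  have hex : ∀ t : K, t ≠ 0 → ∃ k : ℕ, (ζ : K) ^ k = t := by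
    intro t ht
    obtain ⟨k, hk⟩ := hζ (Units.mk0 t ht)
    refine ⟨k, ?_⟩
    have := congrArg Units.val hk
    simpa using this
  obtain ⟨a, rfl⟩ := hex t ht
  obtain ⟨b, rfl⟩ := hex u hu
  obtain ⟨z1, hz1, h1⟩ := key a
  obtain ⟨z2, hz2, h2⟩ := key b
  rw [h1, h2]
  have c1 : ∀ g : P, Commute z1 g := fun g => ((Subgroup.mem_center_iff.1 hz1) g).symm
  have c2 : ∀ g : P, Commute z2 g := fun g => ((Subgroup.mem_center_iff.1 hz2) g).symm
  refine Commute.mul_left (c1 _) ?_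
  refine Commute.mul_right (c2 _).symm ?_
  exact (Commute.refl _).pow_pow a b

end Cfsg.Agent.Lib.Helper72StR1comm
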