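import Cfsg.Agent.Lib.Helper43R1Defs

set_option autoImplicit false

/-! PROJECT 143, piece `r1cent` (extra hypotheses at the end: `h_x`, `h_y` of the piece `r1h`). -/

namespace Cfsg.Agent.Lib.Helper73StR1cent

open Cfsg.Agent.Lib.Helper43R1

variable {K : Type*} [Field K] {P : Type*} [Group P] (R : R1 K P)

theorem c_central (hg : R.Gen) (t u : K) (ht : t ≠ 0) (hu : u ≠ 0)
    (h_x : ∀ t u : K, t ≠ 0 → R.h t * R.x u * (R.h t)⁻¹ = R.x (t ^ 2 * u))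
    (h_y : ∀ t u : K, t ≠ 0 → R.h t * R.y u * (R.h t)⁻¹ = R.y (t⁻¹ ^ 2 * u)) :
    R.h t * R.h u * (R.h (t * u))⁻¹ ∈ Subgroup.center P := by
  have htu : t * u ≠ 0 := mul_ne_zero ht hu
  have kx : ∀ v, (R.h t * R.h u * (R.h (t * u))⁻¹) * R.x v * (R.h t * R.h u * (R.h (t * u))⁻¹)⁻¹
      = R.x v := by
    intro v
    have e1 := h_x (t * u) ((t * u)⁻¹ ^ 2 * v) htu
    have e2 : (t * u) ^ 2 * ((t * u)⁻¹ ^ 2 * v) = v := by field_simp
    rw [e2] at e1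
    calc (R.h t * R.h u * (R.h (t * u))⁻¹) * R.x v * (R.h t * R.h u * (R.h (t * u))⁻¹)⁻¹
        = (R.h t * R.h u * (R.h (t * u))⁻¹) *
          (R.h (t * u) * R.x ((t * u)⁻¹ ^ 2 * v) * (R.h (t * u))⁻¹) *
          (R.h t * R.h u * (R.h (t * u))⁻¹)⁻¹ := by rw [e1]
      _ = R.h t * (R.h u * R.x ((t * u)⁻¹ ^ 2 * v) * (R.h u)⁻¹) * (R.h t)⁻¹ := by group
      _ = R.x (t ^ 2 * (u ^ 2 * ((t * u)⁻¹ ^ 2 * v))) := by rw [h_x u _ hu, h_x t _ ht]
      _ = R.x v := by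
        congr 1
        field_simp
  have ky : ∀ v, (R.h t * R.h u * (R.h (t * u))⁻¹) * R.y v * (R.h t * R.h u * (R.h (t * u))⁻¹)⁻¹
      = R.y v := by
    intro v
    have e1 := h_y (t * u) ((t * u) ^ 2 * v) htu
    have e2 : (t * u)⁻¹ ^ 2 * ((t * u) ^ 2 * v) = v := by field_simp
    rw [e2] at e1
    calc (R.h t * R.h u * (R.h (t * u))⁻¹) * R.y v * (R.h t * R.h u * (R.h (t * u))⁻¹)⁻¹
        = (R.h t * R.h u * (R.h (t * u))⁻¹) *
          (R.h (t * u) * R.y ((t * u) ^ 2 * v) * (R.h (t * u))⁻¹) *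
          (R.h t * R.h u * (R.h (t * u))⁻¹)⁻¹ := by rw [e1]
      _ = R.h t * (R.h u * R.y ((t * u) ^ 2 * v) * (R.h u)⁻¹) * (R.h t)⁻¹ := by group
      _ = R.y (t⁻¹ ^ 2 * (u⁻¹ ^ 2 * ((t * u) ^ 2 * v))) := by rw [h_y u _ hu, h_y t _ ht]
      _ = R.y v := by
        congr 1
        field_simp
  have hle : Subgroup.closure (Set.range R.x ∪ Set.range R.y) ≤
      Subgroup.centralizer {R.h t * R.h u * (R.h (t * u))⁻¹} := by
    rw [Subgroup.closure_le]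
    rintro _ (⟨v, rfl⟩ | ⟨v, rfl⟩)
    · rw [SetLike.mem_coe, Subgroup.mem_centralizer_singleton_iff]
      exact (mul_inv_eq_iff_eq_mul.1 (kx v)).symm
    · rw [SetLike.mem_coe, Subgroup.mem_centralizer_singleton_iff]
      exact (mul_inv_eq_iff_eq_mul.1 (ky v)).symm
  rw [show Subgroup.closure (Set.range R.x ∪ Set.range R.y) = ⊤ from hg] at hle
  rw [Subgroup.mem_center_iff]
  intro g
  exact Subgroup.mem_centralizer_singleton_iff.1 (hle (Subgroup.mem_top g))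

end Cfsg.Agent.Lib.Helper73StR1cent
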