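import Cfsg.Agent.Lib.Helper43R1Defs

set_option autoImplicit false

/-! Project 143, piece `r1basic`. -/

namespace Cfsg.Agent.Lib.Helper9StR1basic

open Cfsg.Agent.Lib.Helper43R1

variable {K : Type*} [Field K] {P : Type*} [Group P] (R : R1 K P)

theorem x_zero : R.x 0 = 1 := by
  have h := R.xadd 0 0
  rw [add_zero] at h
  exact (mul_eq_left.mp h.symm)

theorem y_zero : R.y 0 = 1 := by
  have h := R.yadd 0 0
  rw [add_zero] at h
  exact (mul_eq_left.mp h.symm)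

theorem x_neg (t : K) : (R.x t)⁻¹ = R.x (-t) := by
  rw [inv_eq_iff_mul_eq_one, ← R.xadd, add_neg_cancel, x_zero]

theorem y_neg (t : K) : (R.y t)⁻¹ = R.y (-t) := by
  rw [inv_eq_iff_mul_eq_one, ← R.yadd, add_neg_cancel, y_zero]

theorem w_inv (t : K) : (R.w t)⁻¹ = R.w (-t) := by
  unfold R1.w
  rw [mul_inv_rev, mul_inv_rev, x_neg, y_neg, inv_neg, neg_neg, mul_assoc]

theorem w_x (t u : K) (ht : t ≠ 0) : R.w t * R.x u * (R.w t)⁻¹ = R.y (-(t⁻¹ ^ 2 * u)) :=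
  R.bx t u ht

theorem y_eq (s : K) (_hs : s ≠ 0) : R.y s = R.x s⁻¹ * R.w (-s⁻¹) * R.x s⁻¹ := by
  unfold R1.w
  rw [← x_neg, inv_neg, inv_inv, neg_neg]
  group

theorem w_eq_h (t : K) : R.w t = R.h t * R.w 1 := by
  unfold R1.h
  rw [inv_mul_cancel_right]

theorem h_one : R.h 1 = 1 := by
  unfold R1.h
  rw [mul_inv_cancel]

end Cfsg.Agent.Lib.Helper9StR1basic
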