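import Cfsg.Agent.Lib.Helper9StR1basic

set_option autoImplicit false

/-! Project 143, piece `r1conj`. -/

namespace Cfsg.Agent.Lib.Helper9StR1conj

open Cfsg.Agent.Lib.Helper43R1 Cfsg.Agent.Lib.Helper9StR1basic

variable {K : Type*} [Field K] {P : Type*} [Group P] (R : R1 K P)

theorem w_y (t v : K) (ht : t ≠ 0) : R.w t * R.y v * (R.w t)⁻¹ = R.x (-(t ^ 2 * v)) := by
  have h := w_x R (-t) (-(t ^ 2 * v)) (neg_ne_zero.mpr ht)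
  rw [← w_inv, inv_inv] at h
  have e : -((-t)⁻¹ ^ 2 * -(t ^ 2 * v)) = v := by field_simp
  rw [e] at h
  rw [← h]
  group

theorem w_eq_w' (t : K) (ht : t ≠ 0) : R.w t = R.w' (-t⁻¹) := by
  have h1 := w_x R t t ht
  have h2 := w_y R t (-t⁻¹) ht
  have e1 : -(t⁻¹ ^ 2 * t) = -t⁻¹ := by field_simp
  have e2 : -(t ^ 2 * -t⁻¹) = t := by field_simp
  rw [e1] at h1
  rw [e2] at h2
  have h3 : R.w t = (R.w t * R.x t * (R.w t)⁻¹) * (R.w t * R.y (-t⁻¹) * (R.w t)⁻¹) *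
      (R.w t * R.x t * (R.w t)⁻¹) := by
    have : R.x t * R.y (-t⁻¹) * R.x t = R.w t := rfl
    calc R.w t = R.w t * (R.x t * R.y (-t⁻¹) * R.x t) * (R.w t)⁻¹ := by rw [this]; group
      _ = _ := by group
  rw [h1, h2] at h3
  rw [h3]
  unfold R1.w'
  rw [inv_neg, inv_inv, neg_neg]

theorem w_w (t u : K) (ht : t ≠ 0) (hu : u ≠ 0) :
    R.w t * R.w u * (R.w t)⁻¹ = R.w (t ^ 2 * u⁻¹) := by
  have h1 := w_x R t u ht
  have h2 := w_y R t (-u⁻¹) ht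
  have hne : t ^ 2 * u⁻¹ ≠ 0 := mul_ne_zero (pow_ne_zero 2 ht) (inv_ne_zero hu)
  rw [w_eq_w' R _ hne]
  have e1 : -(t ^ 2 * u⁻¹)⁻¹ = -(t⁻¹ ^ 2 * u) := by field_simp
  have e2 : -(-(t⁻¹ ^ 2 * u))⁻¹ = -(t ^ 2 * -u⁻¹) := by field_simp
  rw [e1]
  unfold R1.w'
  rw [e2, ← h1, ← h2]
  have : R.w u = R.x u * R.y (-u⁻¹) * R.x u := rfl
  rw [this]
  group

end Cfsg.Agent.Lib.Helper9StR1conj
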