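import Cfsg.Agent.Lib.Helper43R1Defs
import Cfsg.Agent.Lib.Helper9StR1basic
import Cfsg.Agent.Lib.Helper9StR1conj

set_option autoImplicit false

/-! PROJECT 143, piece `r1hom` (extra hypothesis at the end: the statement of the row S2426). -/

namespace Cfsg.Agent.Lib.Helper73StR1hom

open Matrix Cfsg.Agent.Lib.Helper43R1 Cfsg.Agent.Lib.Helper9StR1basic
  Cfsg.Agent.Lib.Helper9StR1conj

variable {K : Type*} [Field K] {P : Type*} [Group P] (R : R1 K P)

theorem r1_hom [Finite K]
    (hS : ∃ e : PresentedGroup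
        ({g : FreeGroup (Bool × K) | ∃ (b : Bool) (t u : K), g = FreeGroup.of (b, t) * FreeGroup.of (b, u) * (FreeGroup.of (b, t + u))⁻¹} ∪
          {g | ∃ (b : Bool) (t u : K), t ≠ 0 ∧
            g = (FreeGroup.of (b, t) * FreeGroup.of (!b, -t⁻¹) * FreeGroup.of (b, t)) * FreeGroup.of (b, u) *
                  (FreeGroup.of (b, t) * FreeGroup.of (!b, -t⁻¹) * FreeGroup.of (b, t))⁻¹ * (FreeGroup.of (!b, -(t⁻¹ ^ 2 * u)))⁻¹})
        ≃* Matrix.SpecialLinearGroup (Fin 2) K,
      (∀ t : K, ((e (PresentedGroup.of (true, t)) : Matrix (Fin 2) (Fin 2) K)) = !![1, t; 0, 1]) ∧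
      (∀ t : K, ((e (PresentedGroup.of (false, t)) : Matrix (Fin 2) (Fin 2) K)) = !![1, 0; t, 1])) :
    ∃ f : SpecialLinearGroup (Fin 2) K →* P,
      (∀ t (g : SpecialLinearGroup (Fin 2) K), (g : Matrix (Fin 2) (Fin 2) K) = !![1, t; 0, 1] → f g = R.x t) ∧
      (∀ t (g : SpecialLinearGroup (Fin 2) K), (g : Matrix (Fin 2) (Fin 2) K) = !![1, 0; t, 1] → f g = R.y t) := by
  obtain ⟨e, he1, he2⟩ := hS
  set φ : Bool × K → P := fun p => if p.1 then R.x p.2 else R.y p.2 with hφ
  have hrel : ∀ r ∈ ({g : FreeGroup (Bool × K) | ∃ (b : Bool) (t u : K), g = FreeGroup.of (b, t) * FreeGroup.of (b, u) * (FreeGroup.of (b, t + u))⁻¹} ∪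
          {g | ∃ (b : Bool) (t u : K), t ≠ 0 ∧
            g = (FreeGroup.of (b, t) * FreeGroup.of (!b, -t⁻¹) * FreeGroup.of (b, t)) * FreeGroup.of (b, u) *
                  (FreeGroup.of (b, t) * FreeGroup.of (!b, -t⁻¹) * FreeGroup.of (b, t))⁻¹ * (FreeGroup.of (!b, -(t⁻¹ ^ 2 * u)))⁻¹}),
      FreeGroup.lift φ r = 1 := by
    rintro r (⟨b, t, u, rfl⟩ | ⟨b, t, u, ht, rfl⟩)
    · cases b
      · simp only [map_mul, map_inv, FreeGroup.lift_apply_of, hφ, Bool.false_eq_true, if_false]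
        rw [R.yadd, mul_inv_cancel]
      · simp only [map_mul, map_inv, FreeGroup.lift_apply_of, hφ, if_true]
        rw [R.xadd, mul_inv_cancel]
    · cases b
      · simp only [map_mul, map_inv, FreeGroup.lift_apply_of, hφ, Bool.false_eq_true, if_false,
          Bool.not_false, if_true]
        have hs : -t⁻¹ ≠ 0 := neg_ne_zero.2 (inv_ne_zero ht)
        have h1 := w_eq_w' R (-t⁻¹) hs
        have h2 : -(-t⁻¹)⁻¹ = t := by
          field_simp
        rw [h2] at h1
        have h3 := w_y R (-t⁻¹) u hs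
        rw [h1] at h3
        have h4 : (-t⁻¹) ^ 2 * u = t⁻¹ ^ 2 * u := by ring
        rw [h4] at h3
        rw [mul_inv_eq_one]
        exact h3
      · simp only [map_mul, map_inv, FreeGroup.lift_apply_of, hφ, Bool.false_eq_true, if_false,
          Bool.not_true, if_true]
        rw [mul_inv_eq_one]
        exact R.bx t u ht
  refine ⟨(PresentedGroup.toGroup hrel).comp e.symm.toMonoidHom, ?_, ?_⟩
  · intro t g hgm
    have : g = e (PresentedGroup.of (true, t)) := Subtype.ext (by rw [hgm, he1])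
    rw [this]
    simp [hφ]
  · intro t g hgm
    have : g = e (PresentedGroup.of (false, t)) := Subtype.ext (by rw [hgm, he2])
    rw [this]
    simp [hφ]

end Cfsg.Agent.Lib.Helper73StR1hom
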