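import Cfsg.Agent.Lib.Helper43R1Defs

set_option autoImplicit false

/-! PROJECT 143, piece `r1mul` (extra hypotheses at the end: `h_sq`, `h_comm`, `h_one_sub`,
`exists_nonsquare_pair`). -/

namespace Cfsg.Agent.Lib.Helper73StR1mul

open Cfsg.Agent.Lib.Helper43R1

theorem isSquare_mul_of_not {K : Type*} [Field K] [Finite K] {a b : K}
    (ha : ¬ IsSquare a) (hb : ¬ IsSquare b) : IsSquare (a * b) := by
  classical
  haveI : Fintype K := Fintype.ofFinite K
  have ha0 : a ≠ 0 := by rintro rfl; exact ha (IsSquare.zero)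
  have hb0 : b ≠ 0 := by rintro rfl; exact hb (IsSquare.zero)
  have h1 := quadraticChar_neg_one_iff_not_isSquare.2 ha
  have h2 := quadraticChar_neg_one_iff_not_isSquare.2 hb
  have h3 : quadraticChar K (a * b) = 1 := by rw [map_mul, h1, h2]; norm_num
  exact (quadraticChar_one_iff_isSquare (mul_ne_zero ha0 hb0)).1 h3

variable {K : Type*} [Field K] {P : Type*} [Group P] (R : R1 K P)

theorem h_mul [Finite K] (hg : R.Gen) (t u : K) (ht : t ≠ 0) (hu : u ≠ 0)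
    (h_sq : ∀ t u : K, t ≠ 0 → u ≠ 0 → R.h (t ^ 2 * u) = R.h (t ^ 2) * R.h u)
    (h_comm : ∀ t u : K, t ≠ 0 → u ≠ 0 → Commute (R.h t) (R.h u))
    (h_one_sub : ∀ a : K, a ≠ 0 → a ≠ 1 → R.h a * R.h (1 - a) = R.h (a * (1 - a)))
    (nsq : (2 : K) ≠ 0 → ∃ a : K, ¬ IsSquare a ∧ ¬ IsSquare (1 - a)) :
    R.h (t * u) = R.h t * R.h u := by
  by_cases hts : IsSquare t
  · obtain ⟨s, rfl⟩ := hts
    have hs : s ≠ 0 := fun h => ht (by rw [h, mul_zero])
    rw [← sq]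
    exact h_sq s u hs hu
  by_cases hus : IsSquare u
  · obtain ⟨s, rfl⟩ := hus
    have hs : s ≠ 0 := fun h => hu (by rw [h, mul_zero])
    rw [← sq, mul_comm, h_sq s t hs ht]
    exact (h_comm _ _ (pow_ne_zero 2 hs) ht).eq
  have h2 : (2 : K) ≠ 0 := by
    intro h2
    haveI : CharP K 2 := CharTwo.of_one_ne_zero_of_two_eq_zero one_ne_zero h2
    exact hts (FiniteField.isSquare_of_char_two (ringChar.eq K 2) t)
  obtain ⟨a, ha, hb⟩ := nsq h2
  have ha0 : a ≠ 0 := by rintro rfl; exact ha (IsSquare.zero)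
  have hb0 : 1 - a ≠ 0 := by intro h; rw [h] at hb; exact hb (IsSquare.zero)
  have ha1 : a ≠ 1 := fun h => hb0 (by rw [h, sub_self])
  obtain ⟨r, hr⟩ := isSquare_mul_of_not hts ha
  obtain ⟨r', hr'⟩ := isSquare_mul_of_not hus hb
  have hr0 : r ≠ 0 := by
    rintro rfl
    exact mul_ne_zero ht ha0 (by rw [hr, mul_zero])
  have hr0' : r' ≠ 0 := by
    rintro rfl
    exact mul_ne_zero hu hb0 (by rw [hr', mul_zero])
  have et : t = (r / a) ^ 2 * a := by
    field_simp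
    rw [hr]; ring
  have eu : u = (r' / (1 - a)) ^ 2 * (1 - a) := by
    field_simp
    rw [hr']; ring
  set s := r / a with hs
  set s' := r' / (1 - a) with hs'
  have hs0 : s ≠ 0 := div_ne_zero hr0 ha0
  have hs0' : s' ≠ 0 := div_ne_zero hr0' hb0
  have e1 : t * u = (s * s') ^ 2 * (a * (1 - a)) := by rw [et, eu]; ring
  have e2 : (s * s') ^ 2 = s ^ 2 * s' ^ 2 := by ring
  rw [e1, h_sq _ _ (mul_ne_zero hs0 hs0') (mul_ne_zero ha0 hb0), ← h_one_sub a ha0 ha1, e2,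
    h_sq s _ hs0 (pow_ne_zero 2 hs0'), et, eu, h_sq s a hs0 ha0, h_sq s' _ hs0' hb0]
  have hc := (h_comm (s' ^ 2) a (pow_ne_zero 2 hs0') ha0).eq
  calc R.h (s ^ 2) * R.h (s' ^ 2) * (R.h a * R.h (1 - a))
      = R.h (s ^ 2) * (R.h (s' ^ 2) * R.h a) * R.h (1 - a) := by group
    _ = R.h (s ^ 2) * (R.h a * R.h (s' ^ 2)) * R.h (1 - a) := by rw [hc]
    _ = R.h (s ^ 2) * R.h a * (R.h (s' ^ 2) * R.h (1 - a)) := by group

end Cfsg.Agent.Lib.Helper73StR1mul
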