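import Cfsg.Agent.Lib.Helper43R1Defs
import Cfsg.Agent.Lib.Helper9StR1basic
import Cfsg.Agent.Lib.Helper9StR1conj

set_option autoImplicit false

/-! PROJECT 143, piece `r1xw` (extra hypotheses at the end: `h_mul`, `w1_h`). -/

namespace Cfsg.Agent.Lib.Helper73StR1xw

open Cfsg.Agent.Lib.Helper43R1 Cfsg.Agent.Lib.Helper9StR1basic Cfsg.Agent.Lib.Helper9StR1conj

variable {K : Type*} [Field K] {P : Type*} [Group P] (R : R1 K P)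

theorem x_mul_w [Finite K] (hg : R.Gen) (a : K) (ha : a ≠ 0)
    (h_mul : ∀ t u : K, t ≠ 0 → u ≠ 0 → R.h (t * u) = R.h t * R.h u)
    (w1_h : ∀ t : K, t ≠ 0 → R.w 1 * R.h t * (R.w 1)⁻¹ = R.h t⁻¹) :
    R.x a * R.w 1 = R.y a⁻¹ * R.h (-a) * R.x (-a⁻¹) := by
  have hna : -a ≠ 0 := neg_ne_zero.2 ha
  have e1 : R.y a⁻¹ = R.x a * R.w (-a) * R.x a := by
    have := y_eq R a⁻¹ (inv_ne_zero ha)
    rwa [inv_inv] at this
  have e2 : R.w (-a) * R.x a = R.y (-a⁻¹) * R.w (-a) := by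
    have := w_x R (-a) a hna
    rw [mul_inv_eq_iff_eq_mul] at this
    rw [this]
    congr 2
    field_simp
  have e3 : R.w (-a) * R.w (-a) = R.w 1 * R.w 1 := by
    have h1 := w1_h (-a) hna
    rw [mul_inv_eq_iff_eq_mul] at h1
    have h2 : R.h (-a) * R.h (-a)⁻¹ = 1 := by
      rw [← h_mul _ _ hna (inv_ne_zero hna), mul_inv_cancel₀ hna, h_one]
    calc R.w (-a) * R.w (-a) = R.h (-a) * (R.w 1 * R.h (-a)) * R.w 1 := by
          rw [w_eq_h R (-a)]; group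
      _ = (R.h (-a) * R.h (-a)⁻¹) * (R.w 1 * R.w 1) := by rw [h1]; group
      _ = R.w 1 * R.w 1 := by rw [h2, one_mul]
  have e4 : R.w 1 * R.x (-a⁻¹) = R.y a⁻¹ * R.w 1 := by
    have := w_x R 1 (-a⁻¹) one_ne_zero
    rw [mul_inv_eq_iff_eq_mul] at this
    rw [this]
    congr 2
    simp
  have e5 : R.y (-a⁻¹) * R.y a⁻¹ = 1 := by
    rw [← R.yadd, neg_add_cancel, y_zero]
  calc R.x a * R.w 1 = R.x a * (R.y (-a⁻¹) * R.y a⁻¹) * R.w 1 := by rw [e5, mul_one]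
    _ = R.x a * R.y (-a⁻¹) * (R.y a⁻¹ * R.w 1) := by group
    _ = R.x a * R.y (-a⁻¹) * (R.w 1 * R.x (-a⁻¹)) := by rw [e4]
    _ = R.x a * R.y (-a⁻¹) * (R.w 1 * R.w 1) * (R.w 1)⁻¹ * R.x (-a⁻¹) := by group
    _ = R.x a * (R.y (-a⁻¹) * R.w (-a)) * R.w (-a) * (R.w 1)⁻¹ * R.x (-a⁻¹) := by
      rw [← e3]; group
    _ = R.x a * R.w (-a) * R.x a * (R.w (-a) * (R.w 1)⁻¹) * R.x (-a⁻¹) := by rw [← e2]; group
    _ = R.y a⁻¹ * R.h (-a) * R.x (-a⁻¹) := by rw [← e1]; rfl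

end Cfsg.Agent.Lib.Helper73StR1xw
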