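import Mathlib

set_option autoImplicit false

namespace Cfsg.Agent.Lib.Helper78Str1nsq

theorem exists_nonsquare_pair (K : Type*) [Field K] [Finite K] (h2 : (2 : K) ≠ 0) :
    ∃ a : K, ¬ IsSquare a ∧ ¬ IsSquare (1 - a) := by
  classical
  haveI : Fintype K := Fintype.ofFinite K
  by_contra hcon
  push Not at hcon
  have hchar : ringChar K ≠ 2 := by
    intro h
    have := ringChar.Nat.cast_ringChar (R := K)
    rw [h] at this
    exact h2 (by exact_mod_cast this)
  obtain ⟨c, hc⟩ := FiniteField.exists_nonsquare hchar
  set N : Finset K := Finset.univ.filter (fun a => ¬ IsSquare a) with hN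
  set Sq : Finset K := Finset.univ.filter (fun a => a ≠ 0 ∧ IsSquare a) with hSq
  have hc0 : c ≠ 0 := by
    rintro rfl
    exact hc (IsSquare.zero)
  -- `card Sq ≤ card N`
  have h1 : Sq.card ≤ N.card := by
    apply Finset.card_le_card_of_injOn (fun a => c * a)
    · intro a ha
      have ha' : a ≠ 0 ∧ IsSquare a := by
        have := Finset.mem_coe.1 ha
        rw [hSq, Finset.mem_filter] at this
        exact this.2
      obtain ⟨ha0, d, hd⟩ := ha'
      have hd0 : d ≠ 0 := by
        rintro rfl
        exact ha0 (by rw [hd, mul_zero])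
      apply Finset.mem_coe.2
      rw [hN, Finset.mem_filter]
      refine ⟨Finset.mem_univ _, ?_⟩
      rintro ⟨b, hb⟩
      apply hc
      refine ⟨b / d, ?_⟩
      field_simp
      rw [hd] at hb
      linear_combination hb
    · intro a _ b _ hab
      exact mul_left_cancel₀ hc0 hab
  -- covering
  have h3 : Fintype.card K ≤ N.card + Sq.card + 1 := by
    have hsub : (Finset.univ : Finset K) ⊆ (N ∪ Sq) ∪ {0} := by
      intro a _
      by_cases ha0 : a = 0
      · simp [ha0]
      · by_cases hs : IsSquare a
        · simp [hSq, hs, ha0]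
        · simp [hN, hs]
    calc Fintype.card K = (Finset.univ : Finset K).card := rfl
      _ ≤ ((N ∪ Sq) ∪ {0}).card := Finset.card_le_card hsub
      _ ≤ (N ∪ Sq).card + ({0} : Finset K).card := Finset.card_union_le _ _
      _ ≤ N.card + Sq.card + 1 := by
          have := Finset.card_union_le N Sq
          simp only [Finset.card_singleton]
          omega
  -- packing
  set B : Finset K := N.image (fun a => 1 - a) with hB
  have hBcard : B.card = N.card := by
    rw [hB]
    apply Finset.card_image_of_injective
    intro a b hab
    have : 1 - a = 1 - b := hab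
    linear_combination -this
  have hNmem : ∀ a, a ∈ N ↔ ¬ IsSquare a := by
    intro a; rw [hN, Finset.mem_filter]; simp
  have hBsq : ∀ b ∈ B, IsSquare b := by
    intro b hb
    obtain ⟨a, ha, rfl⟩ := Finset.mem_image.1 hb
    exact hcon a ((hNmem a).1 ha)
  have hdisj1 : Disjoint N B := by
    rw [Finset.disjoint_left]
    intro a ha hb
    exact (hNmem a).1 ha (hBsq a hb)
  have h01 : (0 : K) ≠ 1 := zero_ne_one
  have hdisj2 : Disjoint (N ∪ B) ({0, 1} : Finset K) := by
    rw [Finset.disjoint_left]
    intro a ha h
    rw [Finset.mem_insert, Finset.mem_singleton] at h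
    rcases Finset.mem_union.1 ha with ha | ha
    · rcases h with rfl | rfl
      · exact (hNmem _).1 ha IsSquare.zero
      · exact (hNmem _).1 ha IsSquare.one
    · obtain ⟨a', ha', hEq⟩ := Finset.mem_image.1 ha
      have hEq' : 1 - a' = a := hEq
      rcases h with rfl | rfl
      · have : a' = 1 := by linear_combination -hEq'
        rw [this] at ha'
        exact (hNmem _).1 ha' IsSquare.one
      · have : a' = 0 := by linear_combination -hEq'
        rw [this] at ha'
        exact (hNmem _).1 ha' IsSquare.zero
  have h4 : N.card + N.card + 2 ≤ Fintype.card K := by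
    have : ((N ∪ B) ∪ ({0, 1} : Finset K)).card = N.card + N.card + 2 := by
      rw [Finset.card_union_of_disjoint hdisj2, Finset.card_union_of_disjoint hdisj1, hBcard,
        Finset.card_pair h01]
    rw [← this]
    exact Finset.card_le_univ _
  omega

end Cfsg.Agent.Lib.Helper78Str1nsq
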