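import Cfsg.Agent.Lib.Helper9StR1conj

set_option autoImplicit false

/-! Project 143, pieces `r1h` and `r1neg`. -/

namespace Cfsg.Agent.Lib.Helper9StR1h

open Cfsg.Agent.Lib.Helper43R1 Cfsg.Agent.Lib.Helper9StR1basic Cfsg.Agent.Lib.Helper9StR1conj

variable {K : Type*} [Field K] {P : Type*} [Group P] (R : R1 K P)

theorem h_conj (t : K) (g : P) :
    R.h t * g * (R.h t)⁻¹ = R.w t * (R.w (-1) * g * (R.w (-1))⁻¹) * (R.w t)⁻¹ := by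
  unfold R1.h
  rw [← w_inv]
  group

theorem h_x (t u : K) (ht : t ≠ 0) : R.h t * R.x u * (R.h t)⁻¹ = R.x (t ^ 2 * u) := by
  rw [h_conj, w_x R (-1) u (by simp), w_y R t _ ht]
  congr 1
  field_simp

theorem h_y (t u : K) (ht : t ≠ 0) : R.h t * R.y u * (R.h t)⁻¹ = R.y (t⁻¹ ^ 2 * u) := by
  rw [h_conj, w_y R (-1) u (by simp), w_x R t _ ht]
  congr 1
  field_simp

theorem h_w (t u : K) (ht : t ≠ 0) (hu : u ≠ 0) :
    R.h t * R.w u * (R.h t)⁻¹ = R.w (t ^ 2 * u) := by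
  rw [h_conj, w_w R (-1) u (by simp) hu,
    w_w R t _ ht (mul_ne_zero (by simp) (inv_ne_zero hu))]
  congr 1
  field_simp

theorem w1_h (t : K) (ht : t ≠ 0) : R.w 1 * R.h t * (R.w 1)⁻¹ = R.h t⁻¹ := by
  have h1 := w_w R 1 t one_ne_zero ht
  rw [one_pow, one_mul] at h1
  unfold R1.h
  rw [← h1]
  group

theorem h_h (t u : K) (ht : t ≠ 0) (hu : u ≠ 0) :
    R.h t * R.h u * (R.h t)⁻¹ = R.h (t ^ 2 * u) * (R.h (t ^ 2))⁻¹ := by
  have h1 := h_w R t u ht hu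
  have h2 := h_w R t 1 ht one_ne_zero
  rw [mul_one] at h2
  have e : R.h t * R.h u * (R.h t)⁻¹ =
      (R.h t * R.w u * (R.h t)⁻¹) * (R.h t * R.w 1 * (R.h t)⁻¹)⁻¹ := by
    have : R.h u = R.w u * (R.w 1)⁻¹ := rfl
    rw [this]
    group
  rw [e, h1, h2]
  have e1 : R.h (t ^ 2 * u) = R.w (t ^ 2 * u) * (R.w 1)⁻¹ := rfl
  have e2 : R.h (t ^ 2) = R.w (t ^ 2) * (R.w 1)⁻¹ := rfl
  rw [e1, e2]
  group

theorem h_neg (u : K) (hu : u ≠ 0) : R.h u * R.h (-u) = R.h (-u ^ 2) := by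
  have h1 := w_w R u 1 hu one_ne_zero
  rw [inv_one, mul_one] at h1
  unfold R1.h
  rw [← w_inv R (u ^ 2), ← h1, ← w_inv R u]
  group

end Cfsg.Agent.Lib.Helper9StR1h
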