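import Cfsg.Agent.Lib.Helper43R1Defs
import Cfsg.Agent.Lib.Helper9StR1h
import Cfsg.Agent.Lib.Helper36StR1key

set_option autoImplicit false

namespace Cfsg.Agent.Lib.Helper78Str1one

open Cfsg.Agent.Lib.Helper43R1

variable {K : Type*} [Field K] {P : Type*} [Group P] (R : R1 K P)

/-- piece `r1one`; `w_inv` (`r1basic`), `h_neg` (`r1neg`), `w_key` (`r1key`) are extra hypotheses. -/
theorem h_one_sub_aux (a : K) (ha : a ≠ 0) (ha1 : a ≠ 1)
    (w_inv : ∀ t : K, (R.w t)⁻¹ = R.w (-t))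
    (h_neg : ∀ u : K, u ≠ 0 → R.h u * R.h (-u) = R.h (-u ^ 2))
    (w_key : ∀ a b : K, a ≠ 0 → b ≠ 0 → a + b ≠ 0 →
      R.w (-(a ^ 2 / (a + b))) * R.w a * R.w b = R.w (a * b / (a + b))) :
    R.h a * R.h (1 - a) = R.h (a * (1 - a)) := by
  have hb : (1 - a) ≠ 0 := sub_ne_zero.2 (Ne.symm ha1)
  have hab : a + (1 - a) = 1 := by ring
  have hk := w_key a (1 - a) ha hb (by rw [hab]; exact one_ne_zero)
  rw [hab, div_one, div_one] at hk
  have hw : ∀ t : K, R.w t = R.h t * R.w 1 := by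
    intro t
    show R.w t = R.w t * (R.w 1)⁻¹ * R.w 1
    rw [mul_assoc, inv_mul_cancel, mul_one]
  have h1 : R.w a = (R.w (-a))⁻¹ := by rw [w_inv (-a), neg_neg]
  have h2 : R.w (-(a ^ 2)) * R.w a = R.h a := by
    rw [h1, hw (-(a ^ 2)), hw (-a), mul_inv_rev, mul_assoc, ← mul_assoc (R.w 1), mul_inv_cancel,
      one_mul]
    have := h_neg a ha
    have e : (-a ^ 2 : K) = -(a ^ 2) := rfl
    rw [← e, ← this, mul_assoc, mul_inv_cancel, mul_one]
  rw [h2, hw (1 - a), hw (a * (1 - a)), ← mul_assoc] at hk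
  exact mul_right_cancel hk

/-- piece `r1one`, exact statement. -/
theorem h_one_sub (a : K) (ha : a ≠ 0) (ha1 : a ≠ 1) : R.h a * R.h (1 - a) = R.h (a * (1 - a)) :=
  h_one_sub_aux R a ha ha1 (Cfsg.Agent.Lib.Helper9StR1basic.w_inv R)
    (Cfsg.Agent.Lib.Helper9StR1h.h_neg R) (Cfsg.Agent.Lib.Helper36StR1key.w_key R)

end Cfsg.Agent.Lib.Helper78Str1one
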