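import Cfsg.Agent.Lib.Helper43R1Defs
import Cfsg.Agent.Lib.Helper9StR1h

set_option autoImplicit false

namespace Cfsg.Agent.Lib.Helper78Str1sq

open Cfsg.Agent.Lib.Helper43R1

variable {K : Type*} [Field K] {P : Type*} [Group P] (R : R1 K P)

/-- piece `r1sq`; the pieces `r1h` (`h_h`) and `r1comm` (`h_comm`) are extra hypotheses. -/
theorem h_sq_aux [Finite K] (_hg : R.Gen) (t u : K) (ht : t ≠ 0) (hu : u ≠ 0)
    (h_h : ∀ t u : K, t ≠ 0 → u ≠ 0 →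
      R.h t * R.h u * (R.h t)⁻¹ = R.h (t ^ 2 * u) * (R.h (t ^ 2))⁻¹)
    (h_comm : ∀ t u : K, t ≠ 0 → u ≠ 0 → Commute (R.h t) (R.h u)) :
    R.h (t ^ 2 * u) = R.h (t ^ 2) * R.h u := by
  have h1 := h_h t u ht hu
  have h2 : R.h t * R.h u * (R.h t)⁻¹ = R.h u := by
    rw [(h_comm t u ht hu).eq, mul_assoc, mul_inv_cancel, mul_one]
  rw [h2] at h1
  have h3 : R.h (t ^ 2 * u) = R.h u * R.h (t ^ 2) := by
    rw [h1, mul_assoc, inv_mul_cancel, mul_one]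
  rw [h3]
  exact (h_comm u (t ^ 2) hu (pow_ne_zero 2 ht)).eq

/-- piece `r1sq`; only `h_comm` (piece `r1comm`) is an extra hypothesis. -/
theorem h_sq [Finite K] (hg : R.Gen) (t u : K) (ht : t ≠ 0) (hu : u ≠ 0)
    (h_comm : ∀ t u : K, t ≠ 0 → u ≠ 0 → Commute (R.h t) (R.h u)) :
    R.h (t ^ 2 * u) = R.h (t ^ 2) * R.h u :=
  h_sq_aux R hg t u ht hu (Cfsg.Agent.Lib.Helper9StR1h.h_h R) h_comm

end Cfsg.Agent.Lib.Helper78Str1sq
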