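import Cfsg.Agent.Lib.Helper1StS2426row
import Cfsg.Agent.Lib.Helper9StR1basic
import Cfsg.Agent.Lib.Helper9StR1conj
import Cfsg.Agent.Lib.Helper9StR1h
import Cfsg.Agent.Lib.Helper36StR1key
import Cfsg.Agent.Lib.Helper73StR1cent
import Cfsg.Agent.Lib.Helper72StR1comm
import Cfsg.Agent.Lib.Helper78Str1sq
import Cfsg.Agent.Lib.Helper78Str1one
import Cfsg.Agent.Lib.Helper78Str1nsq
import Cfsg.Agent.Lib.Helper73StR1mul
import Cfsg.Agent.Lib.Helper73StR1xw
import Cfsg.Agent.Lib.Helper72StR1bruhat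
import Cfsg.Agent.Lib.Helper57StR1inj
import Cfsg.Agent.Lib.Helper73StR1hom

set_option autoImplicit false

/-! Project 143: wiring of the rank one pieces (no extra hypotheses left). -/

namespace Cfsg.Agent.Lib.Helper1StR1Wire

open Matrix Cfsg.Agent.Lib.Helper43R1 Cfsg.Agent.Lib.Helper43P3

variable {K : Type*} [Field K] {P : Type*} [Group P] (R : R1 K P)

theorem c_central (hg : R.Gen) (t u : K) (ht : t ≠ 0) (hu : u ≠ 0) :
    R.h t * R.h u * (R.h (t * u))⁻¹ ∈ Subgroup.center P :=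
  Helper73StR1cent.c_central R hg t u ht hu (Helper9StR1h.h_x R) (Helper9StR1h.h_y R)

theorem h_comm [Finite K] (hg : R.Gen) (t u : K) (ht : t ≠ 0) (hu : u ≠ 0) :
    Commute (R.h t) (R.h u) :=
  Helper72StR1comm.h_comm R hg t u ht hu (c_central R hg)

theorem h_sq [Finite K] (hg : R.Gen) (t u : K) (ht : t ≠ 0) (hu : u ≠ 0) :
    R.h (t ^ 2 * u) = R.h (t ^ 2) * R.h u :=
  Helper78Str1sq.h_sq R hg t u ht hu (h_comm R hg)

theorem h_mul [Finite K] (hg : R.Gen) (t u : K) (ht : t ≠ 0) (hu : u ≠ 0) :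
    R.h (t * u) = R.h t * R.h u :=
  Helper73StR1mul.h_mul R hg t u ht hu (h_sq R hg) (h_comm R hg) (Helper78Str1one.h_one_sub R)
    (Helper78Str1nsq.exists_nonsquare_pair K)

theorem x_mul_w [Finite K] (hg : R.Gen) (a : K) (ha : a ≠ 0) :
    R.x a * R.w 1 = R.y a⁻¹ * R.h (-a) * R.x (-a⁻¹) :=
  Helper73StR1xw.x_mul_w R hg a ha (h_mul R hg) (Helper9StR1h.w1_h R)

theorem inC_all [Finite K] (hg : R.Gen) (g : P) : InC R.U R.H ({1, R.w 1} : Set P) g :=
  Helper72StR1bruhat.inC_all R hg g (x_mul_w R hg)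

theorem r1_injective [Finite K] (hg : R.Gen) (π : P →* SpecialLinearGroup (Fin 2) K)
    (hx : ∀ t, ((π (R.x t) : SpecialLinearGroup (Fin 2) K) : Matrix (Fin 2) (Fin 2) K) = !![1, t; 0, 1])
    (hy : ∀ t, ((π (R.y t) : SpecialLinearGroup (Fin 2) K) : Matrix (Fin 2) (Fin 2) K) = !![1, 0; t, 1]) :
    Function.Injective π :=
  Helper57StR1inj.r1_injective R hg π hx hy (h_mul R hg) (inC_all R hg)

/-- the statement of S2426 -/
theorem row [Finite K] :
    ∃ e : PresentedGroup (Helper1StS2426row.rels K) ≃* Matrix.SpecialLinearGroup (Fin 2) K,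
      (∀ t : K, ((e (PresentedGroup.of (true, t)) : Matrix (Fin 2) (Fin 2) K)) = !![1, t; 0, 1]) ∧
      (∀ t : K, ((e (PresentedGroup.of (false, t)) : Matrix (Fin 2) (Fin 2) K)) = !![1, 0; t, 1]) :=
  Helper1StS2426row.row_of (r1_injective (Helper1StS2426row.RR K) (Helper1StS2426row.RR_gen K)
    Helper1StS2426row.pi Helper1StS2426row.pi_x Helper1StS2426row.pi_y)

theorem r1_hom [Finite K] :
    ∃ f : SpecialLinearGroup (Fin 2) K →* P,
      (∀ t (g : SpecialLinearGroup (Fin 2) K), (g : Matrix (Fin 2) (Fin 2) K) = !![1, t; 0, 1] → f g = R.x t) ∧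
      (∀ t (g : SpecialLinearGroup (Fin 2) K), (g : Matrix (Fin 2) (Fin 2) K) = !![1, 0; t, 1] → f g = R.y t) :=
  Helper73StR1hom.r1_hom R row

end Cfsg.Agent.Lib.Helper1StR1Wire
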