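import Cfsg.Agent.Lib.Helper43R1Defs
import Cfsg.Agent.Lib.Helper6SL

set_option autoImplicit false

/-! Project 143, piece `S2426row`: the presented group of S2426 carries an `R1` structure, maps onto `SL_2(K)`;
the injectivity (`r1_injective`) is a hypothesis here. -/

namespace Cfsg.Agent.Lib.Helper1StS2426row

open Matrix Cfsg.Agent.Lib.Helper43R1

variable (K : Type*) [Field K]

/-- the relators of S2426 -/
def rels : Set (FreeGroup (Bool × K)) :=
  ({g : FreeGroup (Bool × K) | ∃ (b : Bool) (t u : K), g = FreeGroup.of (b, t) * FreeGroup.of (b, u) * (FreeGroup.of (b, t + u))⁻¹} ∪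
          {g | ∃ (b : Bool) (t u : K), t ≠ 0 ∧
            g = (FreeGroup.of (b, t) * FreeGroup.of (!b, -t⁻¹) * FreeGroup.of (b, t)) * FreeGroup.of (b, u) *
                  (FreeGroup.of (b, t) * FreeGroup.of (!b, -t⁻¹) * FreeGroup.of (b, t))⁻¹ * (FreeGroup.of (!b, -(t⁻¹ ^ 2 * u)))⁻¹})

variable {K}

theorem of_add (b : Bool) (s t : K) :
    (PresentedGroup.of (b, s + t) : PresentedGroup (rels K)) =
      PresentedGroup.of (b, s) * PresentedGroup.of (b, t) := by
  have h := PresentedGroup.one_of_mem (rels := rels K)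
    (x := FreeGroup.of (b, s) * FreeGroup.of (b, t) * (FreeGroup.of (b, s + t))⁻¹)
    (Or.inl ⟨b, s, t, rfl⟩)
  rw [map_mul, map_mul, map_inv, mul_inv_eq_one] at h
  exact h.symm

theorem of_conj (b : Bool) (t u : K) (ht : t ≠ 0) :
    ((PresentedGroup.of (b, t) : PresentedGroup (rels K)) * PresentedGroup.of (!b, -t⁻¹)
        * PresentedGroup.of (b, t)) * PresentedGroup.of (b, u)
      * (PresentedGroup.of (b, t) * PresentedGroup.of (!b, -t⁻¹) * PresentedGroup.of (b, t))⁻¹
      = PresentedGroup.of (!b, -(t⁻¹ ^ 2 * u)) := by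
  have h := PresentedGroup.one_of_mem (rels := rels K)
    (x := (FreeGroup.of (b, t) * FreeGroup.of (!b, -t⁻¹) * FreeGroup.of (b, t)) * FreeGroup.of (b, u) *
      (FreeGroup.of (b, t) * FreeGroup.of (!b, -t⁻¹) * FreeGroup.of (b, t))⁻¹ *
      (FreeGroup.of (!b, -(t⁻¹ ^ 2 * u)))⁻¹)
    (Or.inr ⟨b, t, u, ht, rfl⟩)
  rw [map_mul, map_inv, mul_inv_eq_one] at h
  simp only [map_mul, map_inv] at h
  exact h

variable (K)

/-- the rank one structure on the presented group -/
noncomputable def RR : R1 K (PresentedGroup (rels K)) where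
  x t := PresentedGroup.of (true, t)
  y t := PresentedGroup.of (false, t)
  xadd s t := of_add true s t
  yadd s t := of_add false s t
  bx t u ht := of_conj true t u ht

theorem RR_gen : (RR K).Gen := by
  unfold R1.Gen
  rw [eq_top_iff, ← PresentedGroup.closure_range_of (rels K)]
  apply Subgroup.closure_mono
  rintro _ ⟨⟨b, t⟩, rfl⟩
  cases b
  · exact Or.inr ⟨t, rfl⟩
  · exact Or.inl ⟨t, rfl⟩

variable {K}

/-- upper unitriangular -/
def mX (t : K) : SpecialLinearGroup (Fin 2) K := ⟨!![1, t; 0, 1], by simp [Matrix.det_fin_two]⟩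

/-- lower unitriangular -/
def mY (t : K) : SpecialLinearGroup (Fin 2) K := ⟨!![1, 0; t, 1], by simp [Matrix.det_fin_two]⟩

/-- images of the generators -/
def gen (p : Bool × K) : SpecialLinearGroup (Fin 2) K := if p.1 then mX p.2 else mY p.2

theorem gen_true (t : K) : gen (true, t) = mX t := rfl
theorem gen_false (t : K) : gen (false, t) = mY t := rfl

theorem coe_mX (t : K) : ((mX t : SpecialLinearGroup (Fin 2) K) : Matrix (Fin 2) (Fin 2) K)
    = !![1, t; 0, 1] := rfl

theorem coe_mY (t : K) : ((mY t : SpecialLinearGroup (Fin 2) K) : Matrix (Fin 2) (Fin 2) K)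
    = !![1, 0; t, 1] := rfl

theorem mX_add (s t : K) : mX s * mX t = mX (s + t) := by
  ext i j
  fin_cases i <;> fin_cases j <;> simp [coe_mX, Matrix.mul_apply, Fin.sum_univ_two, add_comm]

theorem mY_add (s t : K) : mY s * mY t = mY (s + t) := by
  ext i j
  fin_cases i <;> fin_cases j <;> simp [coe_mY, Matrix.mul_apply, Fin.sum_univ_two, add_comm]

theorem mX_conj (t u : K) (ht : t ≠ 0) :
    (mX t * mY (-t⁻¹) * mX t) * mX u = mY (-(t⁻¹ ^ 2 * u)) * (mX t * mY (-t⁻¹) * mX t) := by
  ext i j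
  fin_cases i <;> fin_cases j <;> simp [coe_mX, coe_mY, Matrix.mul_apply, Fin.sum_univ_two] <;>
    field_simp <;> first | simp | ring

theorem mY_conj (t u : K) (ht : t ≠ 0) :
    (mY t * mX (-t⁻¹) * mY t) * mY u = mX (-(t⁻¹ ^ 2 * u)) * (mY t * mX (-t⁻¹) * mY t) := by
  ext i j
  fin_cases i <;> fin_cases j <;> simp [coe_mX, coe_mY, Matrix.mul_apply, Fin.sum_univ_two] <;>
    field_simp <;> first | simp | ring

theorem rels_ok : ∀ r ∈ rels K, FreeGroup.lift gen r = 1 := by
  rintro r (⟨b, t, u, rfl⟩ | ⟨b, t, u, ht, rfl⟩)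
  · simp only [map_mul, map_inv, FreeGroup.lift_apply_of]
    rw [mul_inv_eq_one]
    cases b
    · exact mY_add t u
    · exact mX_add t u
  · simp only [map_mul, map_inv, FreeGroup.lift_apply_of]
    rw [mul_inv_eq_one, mul_inv_eq_iff_eq_mul]
    cases b
    · exact mY_conj t u ht
    · exact mX_conj t u ht

/-- the natural map -/
noncomputable def pi : PresentedGroup (rels K) →* SpecialLinearGroup (Fin 2) K :=
  PresentedGroup.toGroup rels_ok

theorem pi_of (p : Bool × K) : pi (PresentedGroup.of p) = gen p := PresentedGroup.toGroup.of rels_ok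

theorem pi_surjective : Function.Surjective (pi (K := K)) := by
  rw [← MonoidHom.range_eq_top, eq_top_iff]
  intro A _
  refine Helper6SL.transvection_induction (fun A => A ∈ (pi (K := K)).range) ?_
    (fun _ _ => mul_mem) A
  intro i j hij c
  fin_cases i <;> fin_cases j
  · exact absurd rfl hij
  · refine ⟨PresentedGroup.of (true, c), ?_⟩
    rw [pi_of, gen_true]
    apply Subtype.ext
    ext a b
    fin_cases a <;> fin_cases b <;> simp [mX, Matrix.SpecialLinearGroup.transvection_coe, Matrix.single]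
  · refine ⟨PresentedGroup.of (false, c), ?_⟩
    rw [pi_of, gen_false]
    apply Subtype.ext
    ext a b
    fin_cases a <;> fin_cases b <;> simp [mY, Matrix.SpecialLinearGroup.transvection_coe, Matrix.single]
  · exact absurd rfl hij

/-- the row, from the injectivity -/
theorem row_of (hinj : Function.Injective (pi (K := K))) :
    ∃ e : PresentedGroup (rels K) ≃* Matrix.SpecialLinearGroup (Fin 2) K,
      (∀ t : K, ((e (PresentedGroup.of (true, t)) : Matrix (Fin 2) (Fin 2) K)) = !![1, t; 0, 1]) ∧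
      (∀ t : K, ((e (PresentedGroup.of (false, t)) : Matrix (Fin 2) (Fin 2) K)) = !![1, 0; t, 1]) := by
  refine ⟨MulEquiv.ofBijective pi ⟨hinj, pi_surjective⟩, fun t => ?_, fun t => ?_⟩
  · show ((pi (PresentedGroup.of (true, t)) : SpecialLinearGroup (Fin 2) K) : Matrix (Fin 2) (Fin 2) K) = _
    rw [pi_of]
    rfl
  · show ((pi (PresentedGroup.of (false, t)) : SpecialLinearGroup (Fin 2) K) : Matrix (Fin 2) (Fin 2) K) = _
    rw [pi_of]
    rfl

theorem pi_x (t : K) : ((pi ((RR K).x t) : SpecialLinearGroup (Fin 2) K) : Matrix (Fin 2) (Fin 2) K)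
    = !![1, t; 0, 1] := by
  show ((pi (PresentedGroup.of (true, t)) : SpecialLinearGroup (Fin 2) K) : Matrix (Fin 2) (Fin 2) K) = _
  rw [pi_of]
  rfl

theorem pi_y (t : K) : ((pi ((RR K).y t) : SpecialLinearGroup (Fin 2) K) : Matrix (Fin 2) (Fin 2) K)
    = !![1, 0; t, 1] := by
  show ((pi (PresentedGroup.of (false, t)) : SpecialLinearGroup (Fin 2) K) : Matrix (Fin 2) (Fin 2) K) = _
  rw [pi_of]
  rfl

end Cfsg.Agent.Lib.Helper1StS2426row
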