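import Mathlib
import Cfsg.Agent.Lib.Helper71ZaDefs
import Cfsg.Agent.Lib.Helper13LinAct

/-!
# Zassenhaus project, piece LIN1: linearisation of a fixed-point-free action
-/

set_option autoImplicit false

namespace Cfsg.Agent.Lib.Helper36ZaLIN1

open Cfsg.Agent.Lib.Helper71ZaDefs Subgroup

/-- extension of scalars of a fixed-point-free representation, in coordinates -/
theorem exists_rep_fpf {k K : Type*} [Field k] [Field K] (i : k →+* K) (M : Type*)
    [AddCommGroup M] [Module k M] [Module.Finite k M] [Nontrivial M] (H : Type*) [Group H]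
    (ρ₀ : Representation k H M) (h₀ : Fpf ρ₀) :
    ∃ (d : ℕ) (ρ : Representation K H (Fin d → K)), 0 < d ∧ Fpf ρ := by
  classical
  let B := Module.finBasis k M
  let Φ : Module.End k M →+* Module.End K (Fin (Module.finrank k M) → K) :=
    (Matrix.toLinAlgEquiv' : Matrix _ _ K ≃ₐ[K] _).toRingEquiv.toRingHom.comp
      (i.mapMatrix.comp (LinearMap.toMatrixAlgEquiv B).toRingEquiv.toRingHom)
  refine ⟨_, Φ.toMonoidHom.comp ρ₀, Module.finrank_pos, ?_⟩
  intro h hh v hv
  have hinj : Function.Injective (ρ₀ h - 1 : Module.End k M) := by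
    rw [injective_iff_map_eq_zero]
    intro w hw
    apply h₀ h hh w
    simpa [sub_eq_zero] using hw
  have hu : IsUnit (ρ₀ h - 1 : Module.End k M) := by
    rw [Module.End.isUnit_iff]
    exact ⟨hinj, LinearMap.injective_iff_surjective.mp hinj⟩
  have hu2 : IsUnit (Φ (ρ₀ h - 1 : Module.End k M)) := hu.map Φ
  rw [Module.End.isUnit_iff] at hu2
  apply hu2.1
  rw [map_zero, map_sub, map_one, LinearMap.sub_apply, Module.End.one_apply, sub_eq_zero]
  exact hv

theorem fc_of_action' {H A : Type*} [Group H] [CommGroup A] [Finite A] (p : ℕ) [Fact p.Prime]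
    [Module (ZMod p) (Additive A)] (hne : Nontrivial A) (ψ : H →* MulAut A)
    (hψ : ∀ h : H, h ≠ 1 → ∀ a : A, ψ h a = a → a = 1) : FC H := by
  obtain ⟨ρ₀, hρ₀⟩ := Cfsg.Agent.Lib.Helper13LinAct.rep_of_mulAut p A H ψ
  have : Module.Finite (ZMod p) (Additive A) := Module.Finite.of_finite
  have : Nontrivial (Additive A) := hne
  have h₀ : Fpf ρ₀ := by
    intro h hh v hv
    induction v using Additive.rec with
    | _ a =>
      rw [hρ₀] at hv
      have h1 : ψ h a = a := Additive.ofMul.injective hv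
      rw [hψ h hh a h1]; rfl
  obtain ⟨d, ρ, hd, hρ⟩ := exists_rep_fpf (k := ZMod p) (K := KK p)
    (algebraMap (ZMod p) (KK p)) (Additive A) H ρ₀ h₀
  exact ⟨p, inferInstance, d, ρ, hd, hρ⟩

theorem fc_of_action {H A : Type*} [Group H] [CommGroup A] [Finite A] (p : ℕ) [Fact p.Prime]
    (hA : ∀ a : A, a ^ p = 1) (hne : Nontrivial A) (ψ : H →* MulAut A)
    (hψ : ∀ h : H, h ≠ 1 → ∀ a : A, ψ h a = a → a = 1) : FC H := by
  let _ : Module (ZMod p) (Additive A) := AddCommGroup.zmodModule (n := p) (fun x => by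
    induction x using Additive.rec with
    | _ x => rw [← ofMul_pow, hA]; rfl)
  exact fc_of_action' p hne ψ hψ

theorem fc_of_injective {G H : Type*} [Group G] [Group H] (h : FC H) (f : G →* H)
    (hf : Function.Injective f) : FC G := by
  obtain ⟨p, hp, d, ρ, hd, hρ⟩ := h
  refine ⟨p, hp, d, ρ.comp f, hd, ?_⟩
  intro g hg v hv
  exact hρ (f g) (fun h1 => hg (hf (by rw [h1, map_one]))) v hv

end Cfsg.Agent.Lib.Helper36ZaLIN1
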