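import Mathlib
import Cfsg.Agent.Lib.Helper71ZaDefs
import Cfsg.Agent.Lib.Helper36ZaLIN1
import Cfsg.Agent.Lib.Helper1Basic

/-!
# A group acting coprimely with constant centralizers has a fixed-point-free representation

`H` acts on the solvable normal subgroup `K` (coprime orders), every non-identity element of `H`
has the same fixed points as `H`, and `H` does not centralize `K`.  Then `FC H`.
-/

set_option autoImplicit false
set_option linter.unusedSectionVars false

namespace Cfsg.Agent.Lib.Helper1TIHallFC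

open Subgroup Cfsg.Agent.Lib.Helper71ZaDefs Cfsg.Agent.Lib.Helper36ZaLIN1
  Cfsg.Agent.Lib.Helper1Basic

open scoped commutatorElement

universe u

theorem commute_of_comm_mem {L : Type*} [Group L] {Y : Subgroup L} {h x : L}
    (hy : x⁻¹ * (h * x * h⁻¹) ∈ Y) (hc : ∀ y ∈ Y, h * y = y * h)
    (hcop : (orderOf h).Coprime (Nat.card Y)) : h * x = x * h := by
  set y := x⁻¹ * (h * x * h⁻¹) with hydef
  have hxy : h * x * h⁻¹ = x * y := by rw [hydef]; group
  have hyc : h * y * h⁻¹ = y := by rw [hc y hy]; group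
  have key : ∀ k : ℕ, h ^ k * x * (h ^ k)⁻¹ = x * y ^ k := by
    intro k
    induction k with
    | zero => simp
    | succ k ih =>
      have hyk : h * y ^ k * h⁻¹ = y ^ k := by rw [← conj_pow, hyc]
      calc h ^ (k + 1) * x * (h ^ (k + 1))⁻¹ = h * (h ^ k * x * (h ^ k)⁻¹) * h⁻¹ := by
            rw [pow_succ']; group
        _ = h * (x * y ^ k) * h⁻¹ := by rw [ih]
        _ = (h * x * h⁻¹) * (h * y ^ k * h⁻¹) := by group
        _ = x * y ^ (k + 1) := by rw [hxy, hyk, pow_succ', mul_assoc]
  have h1 := key (orderOf h)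
  rw [pow_orderOf_eq_one] at h1
  have h2 : y ^ orderOf h = 1 := by simpa using h1.symm
  have h3 : orderOf y ∣ orderOf h := orderOf_dvd_of_pow_eq_one h2
  have h4 : orderOf y ∣ Nat.card Y := by
    have := orderOf_dvd_natCard (⟨y, hy⟩ : Y)
    rwa [← Subgroup.orderOf_coe] at this
  have h5 : orderOf y = 1 := Nat.eq_one_of_dvd_coprimes hcop h3 h4
  have h6 : y = 1 := orderOf_eq_one_iff.1 h5
  rw [h6, mul_one] at hxy
  calc h * x = (h * x * h⁻¹) * h := by group
    _ = x * h := by rw [hxy]

/-- the abelian case, `L = V H`. -/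
theorem fc_abelian_top {L : Type u} [Group L] [Finite L] (V H : Subgroup L) [hVn : V.Normal]
    (hsup : V ⊔ H = ⊤) (hab : ∀ a ∈ V, ∀ b ∈ V, a * b = b * a) (p : ℕ) [Fact p.Prime]
    (hexp : ∀ a ∈ V, a ^ p = 1) (hcop : (Nat.card V).Coprime (Nat.card H))
    (hconst : ∀ h ∈ H, h ≠ 1 → ∀ x ∈ V, h * x = x * h → x ∈ centralizer (H : Set L))
    (hne : ¬ V ≤ centralizer (H : Set L)) : FC H := by
  set V1 : Subgroup L := V ⊓ centralizer (H : Set L) with hV1
  have hV1n : V1.Normal := by
    rw [← normalizer_eq_top_iff, eq_top_iff, ← hsup]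
    refine sup_le ?_ ?_
    · apply le_normalizer_of_forall_conj_mem
      intro v hv x hx
      rw [hab v hv x hx.1]
      simpa using hx
    · apply le_normalizer_of_forall_conj_mem
      intro h hh x hx
      have := (mem_centralizer_iff.1 hx.2) h hh
      rw [this]
      simpa using hx
  let π := QuotientGroup.mk' V1
  have hπ : Function.Surjective π := QuotientGroup.mk'_surjective V1
  set A : Subgroup (L ⧸ V1) := V.map π with hA
  have hAn : A.Normal := hVn.map π hπ
  let _ : CommGroup A := { (inferInstance : Group A) with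
    mul_comm := by
      rintro ⟨_, a, ha, rfl⟩ ⟨_, b, hb, rfl⟩
      apply Subtype.ext
      show π a * π b = π b * π a
      rw [← map_mul, ← map_mul, hab a ha b hb] }
  let ψ : H →* MulAut A := (MulAut.conjNormal (H := A)).comp (π.comp H.subtype)
  refine fc_of_action p ?_ ?_ ψ ?_
  · rintro ⟨_, a, ha, rfl⟩
    apply Subtype.ext
    show π a ^ p = 1
    rw [← map_pow, hexp a ha, map_one]
  · obtain ⟨x, hxV, hxC⟩ := SetLike.not_le_iff_exists.1 hne
    refine ⟨⟨⟨π x, x, hxV, rfl⟩, 1, ?_⟩⟩
    intro h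
    have h1 : π x = 1 := congrArg Subtype.val h
    have h2 : x ∈ V1 := (QuotientGroup.eq_one_iff x).1 h1
    exact hxC h2.2
  · rintro ⟨h, hh⟩ hh1 ⟨_, x, hx, rfl⟩ hfix
    have h1 : π h * π x * (π h)⁻¹ = π x := congrArg Subtype.val hfix
    have h2 : x⁻¹ * (h * x * h⁻¹) ∈ V1 := by
      rw [← QuotientGroup.eq_one_iff]
      show π (x⁻¹ * (h * x * h⁻¹)) = 1
      rw [map_mul, map_mul, map_mul, map_inv, map_inv, h1, inv_mul_cancel]
    have h3 : h * x = x * h := by
      apply commute_of_comm_mem h2
      · intro y hy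
        exact (mem_centralizer_iff.1 hy.2) h hh
      · refine Nat.Coprime.coprime_dvd_left ?_ (Nat.Coprime.coprime_dvd_right
          (card_dvd_of_le (inf_le_left : V1 ≤ V)) hcop.symm)
        have := orderOf_dvd_natCard (⟨h, hh⟩ : H)
        rwa [← Subgroup.orderOf_coe] at this
    have h4 := hconst h hh (fun e => hh1 (Subtype.ext e)) x hx h3
    apply Subtype.ext
    show π x = 1
    exact (QuotientGroup.eq_one_iff x).2 ⟨hx, h4⟩

/-- the abelian case, ambient form. -/
theorem fc_abelian {L : Type u} [Group L] [Finite L] (V H : Subgroup L)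
    (hHV : H ≤ normalizer (V : Set L)) (hab : ∀ a ∈ V, ∀ b ∈ V, a * b = b * a) (p : ℕ)
    [Fact p.Prime] (hexp : ∀ a ∈ V, a ^ p = 1) (hcop : (Nat.card V).Coprime (Nat.card H))
    (hconst : ∀ h ∈ H, h ≠ 1 → ∀ x ∈ V, h * x = x * h → x ∈ centralizer (H : Set L))
    (hne : ¬ V ≤ centralizer (H : Set L)) : FC H := by
  set X : Subgroup L := V ⊔ H with hX
  have hVX : V ≤ X := le_sup_left
  have hHX : H ≤ X := le_sup_right
  have hXn : X ≤ normalizer (V : Set L) := sup_le le_normalizer hHV
  have hn : (V.subgroupOf X).Normal := normal_subgroupOf_of_le_normalizer hXn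
  have hFC : FC (H.subgroupOf X) := by
    refine fc_abelian_top (V.subgroupOf X) (H.subgroupOf X) ?_ ?_ p ?_ ?_ ?_ ?_
    · rw [← subgroupOf_sup hVX hHX, subgroupOf_self]
    · intro a ha b hb
      apply Subtype.ext
      exact hab a ha b hb
    · intro a ha
      apply Subtype.ext
      exact hexp a ha
    · rw [card_subgroupOf_of_le hVX, card_subgroupOf_of_le hHX]
      exact hcop
    · intro h hh hh1 x hx hc
      have h1 := hconst h hh (fun e => hh1 (Subtype.ext e)) x hx (congrArg Subtype.val hc)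
      rw [mem_centralizer_iff] at h1 ⊢
      intro k hk
      apply Subtype.ext
      exact h1 k hk
    · intro hle
      apply hne
      intro x hx
      have h1 := hle (show (⟨x, hVX hx⟩ : X) ∈ V.subgroupOf X from hx)
      rw [mem_centralizer_iff] at h1 ⊢
      intro k hk
      exact congrArg Subtype.val (h1 ⟨k, hHX hk⟩ hk)
  exact fc_of_injective hFC (subgroupOfEquivOfLe hHX).symm.toMonoidHom
    (subgroupOfEquivOfLe hHX).symm.injective

/-- a nontrivial solvable normal subgroup contains a nontrivial elementary abelian normal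
subgroup of the whole group. -/
theorem exists_elem_abelian_normal {L : Type u} [Group L] [Finite L] (K : Subgroup L)
    [hKn : K.Normal] (hs : Group.IsSolvable K) (hK : K ≠ ⊥) :
    ∃ (V : Subgroup L) (p : ℕ), V.Normal ∧ V ≤ K ∧ V ≠ ⊥ ∧ p.Prime ∧
      (∀ a ∈ V, ∀ b ∈ V, a * b = b * a) ∧ ∀ a ∈ V, a ^ p = 1 := by
  classical
  -- a minimal nontrivial normal subgroup inside `K`
  obtain ⟨V, ⟨hVn, hVK, hV⟩, hmin⟩ := Set.Finite.exists_minimal
    (s := {V : Subgroup L | V.Normal ∧ V ≤ K ∧ V ≠ ⊥}) (Set.toFinite _) ⟨K, hKn, le_refl _, hK⟩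
  have hmin' : ∀ W : Subgroup L, W.Normal → W ≤ V → W ≠ ⊥ → W = V := by
    intro W hWn hWV hW
    exact le_antisymm hWV (hmin ⟨hWn, hWV.trans hVK, hW⟩ hWV)
  have hVs : Group.IsSolvable V := isSolvable_of_le hVK
  have hVnt : Nontrivial V := (Subgroup.nontrivial_iff_ne_bot V).2 hV
  have hcomm : ⁅V, V⁆ = ⊥ := by
    by_contra hne
    have h1 : ⁅V, V⁆ = V := hmin' _ inferInstance (commutator_le_left V V) hne
    have h2 := Group.IsSolvable.commutator_lt_top_of_nontrivial V
    have h3 : (commutator V).map V.subtype = ⁅V, V⁆ := by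
      rw [commutator_def, map_commutator, ← MonoidHom.range_eq_map, V.range_subtype]
    rw [h1] at h3
    have h4 : commutator V = ⊤ := by
      apply map_injective V.subtype_injective
      rw [h3, ← MonoidHom.range_eq_map, V.range_subtype]
    exact h2.ne h4
  have hab : ∀ a ∈ V, ∀ b ∈ V, a * b = b * a := by
    intro a ha b hb
    have h1 : ⁅a, b⁆ ∈ ⁅V, V⁆ := commutator_mem_commutator ha hb
    rw [hcomm, mem_bot] at h1
    exact commutatorElement_eq_one_iff_mul_comm.1 h1
  have hV1 : Nat.card V ≠ 1 := fun h => hV (Subgroup.card_eq_one.1 h)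
  obtain ⟨p, hp, hpV⟩ := Nat.exists_prime_and_dvd hV1
  have : Fact p.Prime := ⟨hp⟩
  let W : Subgroup L :=
    { carrier := {x | x ∈ V ∧ x ^ p = 1}
      mul_mem' := by
        rintro a b ⟨ha, ha'⟩ ⟨hb, hb'⟩
        refine ⟨mul_mem ha hb, ?_⟩
        have : Commute a b := hab a ha b hb
        rw [this.mul_pow, ha', hb', one_mul]
      one_mem' := ⟨one_mem _, one_pow _⟩
      inv_mem' := by
        rintro a ⟨ha, ha'⟩
        exact ⟨inv_mem ha, by rw [inv_pow, ha', inv_one]⟩ }
  have hWn : W.Normal := ⟨by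
    rintro x ⟨hx, hx'⟩ g
    exact ⟨hVn.conj_mem x hx g, by rw [conj_pow, hx']; group⟩⟩
  have hWV : W ≤ V := fun x hx => hx.1
  have hW : W ≠ ⊥ := by
    obtain ⟨x, hx⟩ := exists_prime_orderOf_dvd_card' p hpV
    intro h
    have h1 : (x : L) ∈ W := ⟨x.2, by
      rw [← Subgroup.coe_pow, ← hx, pow_orderOf_eq_one]; rfl⟩
    rw [h, mem_bot] at h1
    have h2 : x = 1 := Subtype.ext h1
    rw [h2, orderOf_one] at hx
    exact hp.one_lt.ne hx
  have hWe := hmin' W hWn hWV hW
  refine ⟨V, p, hVn, hVK, hV, hp, hab, ?_⟩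
  intro a ha
  rw [← hWe] at ha
  exact ha.2

theorem fc_aux (n : ℕ) : ∀ (L : Type u) [Group L] [Finite L], Nat.card L = n →
    ∀ (K H : Subgroup L) [K.Normal], Group.IsSolvable K → (Nat.card K).Coprime (Nat.card H) →
    (∀ h ∈ H, h ≠ 1 → ∀ x ∈ K, h * x = x * h → x ∈ centralizer (H : Set L)) →
    ¬ K ≤ centralizer (H : Set L) → FC H := by
  induction n using Nat.strong_induction_on with
  | _ n ih =>
    intro L _ _ hn K H hKn hs hcop hconst hne
    have hK : K ≠ ⊥ := by
      rintro rfl
      exact hne bot_le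
    obtain ⟨V, p, hVn, hVK, hV, hp, hab, hexp⟩ := exists_elem_abelian_normal K hs hK
    have : Fact p.Prime := ⟨hp⟩
    have hcopV : (Nat.card V).Coprime (Nat.card H) :=
      Nat.Coprime.coprime_dvd_left (card_dvd_of_le hVK) hcop
    by_cases hVC : V ≤ centralizer (H : Set L)
    · let π := QuotientGroup.mk' V
      have hπ : Function.Surjective π := QuotientGroup.mk'_surjective V
      have hlt : Nat.card (L ⧸ V) < n := hn ▸ card_quotient_lt_of_ne_bot hV
      have hKn' : (K.map π).Normal := hKn.map π hπ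
      have key : ∀ h ∈ H, ∀ x : L, π h * π x = π x * π h → h * x = x * h := by
        intro h hh x hc
        apply commute_of_comm_mem (Y := V)
        · rw [← QuotientGroup.eq_one_iff]
          show π (x⁻¹ * (h * x * h⁻¹)) = 1
          rw [map_mul, map_mul, map_mul, map_inv, map_inv, hc]
          group
        · intro y hy
          exact (mem_centralizer_iff.1 (hVC hy)) h hh
        · refine Nat.Coprime.coprime_dvd_left ?_ hcopV.symm
          have := orderOf_dvd_natCard (⟨h, hh⟩ : H)
          rwa [← Subgroup.orderOf_coe] at this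
      have hFC : FC (H.map π) := by
        refine ih _ hlt (L ⧸ V) rfl (K.map π) (H.map π) (isSolvable_map π K) ?_ ?_ ?_
        · exact Nat.Coprime.coprime_dvd_left (card_map_dvd K π)
            (Nat.Coprime.coprime_dvd_right (card_map_dvd H π) hcop)
        · rintro _ ⟨h, hh, rfl⟩ hh1 _ ⟨x, hx, rfl⟩ hc
          have h1 := key h hh x hc
          have hh1' : h ≠ 1 := by
            rintro rfl
            exact hh1 (map_one π)
          have h2 := hconst h hh hh1' x hx h1
          rw [mem_centralizer_iff]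
          rintro _ ⟨k, hk, rfl⟩
          rw [← map_mul, ← map_mul, (mem_centralizer_iff.1 h2) k hk]
        · intro hle
          apply hne
          intro x hx
          rw [mem_centralizer_iff]
          intro k hk
          have h1 := hle (mem_map_of_mem π hx)
          have h2 := (mem_centralizer_iff.1 h1) (π k) (mem_map_of_mem π hk)
          exact key k hk x h2
      refine fc_of_injective hFC (π.subgroupMap H) ?_
      rw [injective_iff_map_eq_one]
      rintro ⟨h, hh⟩ h1
      have h2 : π h = 1 := congrArg Subtype.val h1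
      have h3 : h ∈ V := (QuotientGroup.eq_one_iff h).1 h2
      have h4 : h ∈ V ⊓ H := ⟨h3, hh⟩
      rw [(Subgroup.disjoint_of_coprime_natCard hcopV).eq_bot, mem_bot] at h4
      exact Subtype.ext h4
    · refine fc_abelian V H ?_ hab p hexp hcopV
        (fun h hh hh1 x hx => hconst h hh hh1 x (hVK hx)) hVC
      rw [normalizer_eq_top_iff.2 hVn]
      exact le_top

/-- `H` acts on the solvable normal subgroup `K` (coprime orders), every non-identity element of
`H` has the same fixed points as `H`, and `H` does not centralize `K`.  Then `FC H`. -/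
theorem fc_of_const_centralizer {L : Type u} [Group L] [Finite L] (K H : Subgroup L) [K.Normal]
    (hs : Group.IsSolvable K) (hcop : (Nat.card K).Coprime (Nat.card H))
    (hconst : ∀ h ∈ H, h ≠ 1 → ∀ x ∈ K, h * x = x * h → x ∈ centralizer (H : Set L))
    (hne : ¬ K ≤ centralizer (H : Set L)) : FC H :=
  fc_aux _ L rfl K H hs hcop hconst hne

end Cfsg.Agent.Lib.Helper1TIHallFC
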