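import Mathlib
import Cfsg.Agent.Lib.Helper71ZaDefs
import Cfsg.Agent.Lib.Helper1FpfSylow
import Cfsg.Agent.S0016

/-!
# Zassenhaus project, piece SYL
-/

set_option autoImplicit false

namespace Cfsg.Agent.Lib.Helper75ZaSYL

open Cfsg.Agent.Lib.Helper71ZaDefs Subgroup

section
variable {H : Type*} [Group H] [Finite H]

omit [Finite H] in
theorem abelian_cyclic_sub
    (hcyc : ∀ A : Subgroup H, (∀ a ∈ A, ∀ b ∈ A, a * b = b * a) → IsCyclic A)
    (Q : Subgroup H) (E : Subgroup Q) (hE : IsMulCommutative E) : IsCyclic E := by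
  have h1 : IsCyclic (E.map Q.subtype) := by
    apply hcyc
    rintro _ ⟨a, ha, rfl⟩ _ ⟨b, hb, rfl⟩
    have := hE.is_comm.comm (⟨a, ha⟩ : E) ⟨b, hb⟩
    exact congrArg (fun x : E => ((x : Q) : H)) this
  exact isCyclic_of_surjective (E.equivMapOfInjective Q.subtype Q.subtype_injective).symm
    (MulEquiv.surjective _)

theorem sylow_cyclic (hcyc : ∀ A : Subgroup H, (∀ a ∈ A, ∀ b ∈ A, a * b = b * a) → IsCyclic A)
    (q : ℕ) [Fact q.Prime] (hq : q ≠ 2) (P : Sylow q H) : IsCyclic P := by
  have h1 := Cfsg.Agent.Lib.Helper1FpfSylow.unique_of_abelian_cyclic (P := P) (p := q) P.isPGroup'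
    (fun E hE => abelian_cyclic_sub hcyc P E hE)
  rcases Cfsg.Agent.S0016.result (G := P) q P.isPGroup' h1 with h | ⟨h, -⟩
  · exact h
  · exact absurd h hq

/-- every `2`-subgroup has a cyclic subgroup of index at most `2` -/
theorem two_subgroup (hZ : ZG H) (Q : Subgroup H) (hQ : IsPGroup 2 Q) :
    ∃ A : Subgroup H, A ≤ Q ∧ IsCyclic A ∧ (A.subgroupOf Q).index ∣ 2 := by
  have h1 := Cfsg.Agent.Lib.Helper1FpfSylow.unique_of_abelian_cyclic (P := Q) (p := 2) hQ
    (fun E hE => abelian_cyclic_sub hZ.cyc Q E hE)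
  rcases Cfsg.Agent.S0016.result (G := Q) 2 hQ h1 with h | ⟨-, n, ⟨e⟩⟩
  · refine ⟨Q, le_refl _, h, ?_⟩
    rw [Subgroup.subgroupOf_self, Subgroup.index_top]
    exact one_dvd _
  · have hne : NeZero (2 ^ n) := ⟨by positivity⟩
    set C : Subgroup (QuaternionGroup (2 ^ n)) := zpowers (QuaternionGroup.a 1) with hC
    have hCidx : C.index = 2 := by
      have h2 := C.card_mul_index
      rw [hC, Nat.card_zpowers, QuaternionGroup.orderOf_a_one, Nat.card_eq_fintype_card,
        QuaternionGroup.card] at h2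
      have h3 : 0 < 2 * 2 ^ n := by positivity
      apply Nat.eq_of_mul_eq_mul_left h3
      rw [h2]; ring
    set A' : Subgroup Q := C.map (e.symm : QuaternionGroup (2 ^ n) →* Q) with hA'
    have hA'idx : A'.index = 2 := by rw [hA', Subgroup.index_map_equiv, hCidx]
    have hA'cyc : IsCyclic A' :=
      isCyclic_of_surjective (C.equivMapOfInjective (e.symm : QuaternionGroup (2 ^ n) →* Q)
        e.symm.injective) (MulEquiv.surjective _)
    refine ⟨A'.map Q.subtype, ?_, ?_, ?_⟩
    · rintro _ ⟨x, -, rfl⟩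
      exact x.2
    · exact isCyclic_of_surjective (A'.equivMapOfInjective Q.subtype Q.subtype_injective)
        (MulEquiv.surjective _)
    · have h2 : (A'.map Q.subtype).subgroupOf Q = A' := by
        ext x
        rw [Subgroup.mem_subgroupOf]
        constructor
        · rintro ⟨y, hy, hyx⟩
          have : y = x := Subtype.ext hyx
          rwa [← this]
        · intro hx
          exact ⟨x, hx, rfl⟩
      rw [h2, hA'idx]

end

/-- groups with cyclic Sylow subgroups are solvable -/
theorem solvable_of_sylow_cyclic {G : Type*} [Group G] [Finite G]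
    (h : ∀ (q : ℕ) [Fact q.Prime] (P : Sylow q G), IsCyclic P) : Group.IsSolvable G := by
  have : IsZGroup G := ⟨fun q hq P => by
    have : Fact q.Prime := ⟨hq⟩
    exact h q P⟩
  infer_instance

end Cfsg.Agent.Lib.Helper75ZaSYL
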