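import Mathlib
import Cfsg.Agent.Lib.Helper1Basic
import Cfsg.Agent.Lib.Helper1SylowInv
import Cfsg.Agent.Lib.Helper1Glauberman
import Cfsg.Agent.Lib.Helper1FpfSylow
import Cfsg.Agent.Lib.Helper11CyclicTwo
import Cfsg.Agent.Lib.Helper75ZaSYL
import Cfsg.Agent.S0016

/-!
# Coprime operator groups of solvable groups all of whose abelian subgroups are cyclic
-/

set_option autoImplicit false
set_option linter.unusedSectionVars false

namespace Cfsg.Agent.Lib.Helper1TIHallSolv

open Subgroup Cfsg.Agent.Lib.Helper1Basic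
open scoped commutatorElement

variable {G : Type*} [Group G]

theorem isSolvable_of_commutator_le {A B : Subgroup G} (h : ⁅B, B⁆ ≤ A)
    (hA : Group.IsSolvable A) : Group.IsSolvable B := by
  have hmem : ∀ x : commutator B, ((x : B) : G) ∈ A := by
    intro x
    apply h
    have h3 : (commutator B).map B.subtype = ⁅B, B⁆ := by
      rw [commutator_def, map_commutator, ← MonoidHom.range_eq_map, B.range_subtype]
    rw [← h3]
    exact ⟨x, x.2, rfl⟩
  have h1 : Group.IsSolvable (commutator B) := by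
    refine Group.isSolvable_of_isSolvable_injective
      (f := (B.subtype.comp (commutator B).subtype).codRestrict A hmem) ?_
    intro x y hxy
    have := congrArg Subtype.val hxy
    exact Subtype.ext (Subtype.ext this)
  exact Group.isSolvable_of_ker_le_range (commutator B).subtype (Abelianization.of (G := B))
    (by rw [Abelianization.ker_of, Subgroup.range_subtype])

theorem isSolvable_of_pgroup_quot [Finite G] {A B : Subgroup G} (p : ℕ) [Fact p.Prime]
    (hn : B ≤ normalizer (A : Set G)) (hA : Group.IsSolvable A)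
    (hp : ∀ b ∈ B, ∃ k : ℕ, b ^ (p ^ k) ∈ A) : Group.IsSolvable B := by
  have hN : (A.subgroupOf B).Normal := normal_subgroupOf_of_le_normalizer hn
  have h1 : Group.IsSolvable (A.subgroupOf B) := isSolvable_subgroupOf A B
  have h2 : IsPGroup p (B ⧸ A.subgroupOf B) := by
    intro q
    obtain ⟨b, rfl⟩ := QuotientGroup.mk_surjective q
    obtain ⟨k, hk⟩ := hp b b.2
    refine ⟨k, ?_⟩
    rw [← QuotientGroup.mk_pow, QuotientGroup.eq_one_iff]
    exact hk
  have h3 : Group.IsNilpotent (B ⧸ A.subgroupOf B) := h2.isNilpotent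
  have h4 : Group.IsSolvable (B ⧸ A.subgroupOf B) := inferInstance
  exact Group.isSolvable_of_ker_le_range (A.subgroupOf B).subtype
    (QuotientGroup.mk' (A.subgroupOf B)) (by simp)

theorem comm_mem_centralizer_of_cyclic (R : Subgroup G) (hR : IsCyclic R) {a b : G}
    (ha : a ∈ normalizer (R : Set G)) (hb : b ∈ normalizer (R : Set G)) :
    ⁅a, b⁆ ∈ centralizer (R : Set G) := by
  let φ : normalizer (R : Set G) →* MulAut R := R.normalizerMonoidHom
  have e := IsCyclic.mulAutMulEquiv R
  have hc : ∀ x y : MulAut R, x * y = y * x := by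
    intro x y
    apply e.injective
    rw [map_mul, map_mul, mul_comm]
  have h1 : φ ⁅(⟨a, ha⟩ : normalizer (R : Set G)), ⟨b, hb⟩⁆ = 1 := by
    rw [map_commutatorElement, commutatorElement_eq_one_iff_mul_comm]
    exact hc _ _
  rw [mem_centralizer_iff]
  intro x hx
  have h2 := congrArg (fun f : MulAut R => ((f ⟨x, hx⟩ : R) : G)) h1
  have h3 : ⁅a, b⁆ * x * ⁅a, b⁆⁻¹ = x := h2
  calc x * ⁅a, b⁆ = (⁅a, b⁆ * x * ⁅a, b⁆⁻¹) * ⁅a, b⁆ := by rw [h3]
    _ = ⁅a, b⁆ * x := by group

theorem eq_of_sylow_le [Finite G] {X H : Subgroup G} (hXH : X ≤ H)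
    (h : ∀ (r : ℕ) [Fact r.Prime], ∃ P : Sylow r H, (P : Subgroup H).map H.subtype ≤ X) :
    X = H := by
  have h1 : (X.subgroupOf H).index = 1 := by
    by_contra hne
    obtain ⟨r, hr, hrd⟩ := Nat.exists_prime_and_dvd hne
    have : Fact r.Prime := ⟨hr⟩
    obtain ⟨P, hP⟩ := h r
    have h2 : (P : Subgroup H) ≤ X.subgroupOf H := by
      intro x hx
      exact hP ⟨x, hx, rfl⟩
    exact P.not_dvd_index (hrd.trans (index_dvd_of_le h2))
  rw [index_eq_one, subgroupOf_eq_top] at h1
  exact le_antisymm hXH h1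

theorem normalizer_le_normalizer_centralizer (R : Subgroup G) :
    normalizer (R : Set G) ≤ normalizer ((centralizer (R : Set G) : Subgroup G) : Set G) := by
  apply le_normalizer_of_forall_conj_mem
  intro w hw c hc
  rw [mem_centralizer_iff] at hc ⊢
  intro x hx
  have hx' : w⁻¹ * x * w ∈ R := by
    have := (mem_normalizer_iff.mp (inv_mem hw) x).mp hx
    simpa using this
  have := hc _ hx'
  calc x * (w * c * w⁻¹) = w * ((w⁻¹ * x * w) * c) * w⁻¹ := by group
    _ = w * (c * (w⁻¹ * x * w)) * w⁻¹ := by rw [this]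
    _ = w * c * w⁻¹ * x := by group

theorem abelian_cyclic_sub' {Q : Subgroup G}
    (hab : ∀ E : Subgroup G, E ≤ Q → IsMulCommutative E → IsCyclic E)
    (E : Subgroup Q) (hE : IsMulCommutative E) : IsCyclic E := by
  have h1 : IsCyclic (E.map Q.subtype) := by
    apply hab _ (map_subtype_le E)
    refine ⟨⟨?_⟩⟩
    rintro ⟨_, a, ha, rfl⟩ ⟨_, b, hb, rfl⟩
    have := hE.is_comm.comm (⟨a, ha⟩ : E) ⟨b, hb⟩
    apply Subtype.ext
    exact congrArg (fun x : E => ((x : Q) : G)) this
  exact isCyclic_of_surjective (E.equivMapOfInjective Q.subtype Q.subtype_injective).symm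
    (MulEquiv.surjective _)

/-- a `2`-subgroup all of whose abelian subgroups are cyclic has a cyclic subgroup of index at
most `2` (after `Helper75ZaSYL.two_subgroup`). -/
theorem two_subgroup' [Finite G] (Q : Subgroup G) (hQ : IsPGroup 2 Q)
    (hab : ∀ E : Subgroup G, E ≤ Q → IsMulCommutative E → IsCyclic E) :
    ∃ A : Subgroup G, A ≤ Q ∧ IsCyclic A ∧ (A.subgroupOf Q).index ∣ 2 := by
  have h1 := Cfsg.Agent.Lib.Helper1FpfSylow.unique_of_abelian_cyclic (P := Q) (p := 2) hQ
    (fun E hE => abelian_cyclic_sub' hab E hE)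
  rcases Cfsg.Agent.S0016.result (G := Q) 2 hQ h1 with h | ⟨-, n, ⟨e⟩⟩
  · refine ⟨Q, le_refl _, h, ?_⟩
    rw [Subgroup.subgroupOf_self, Subgroup.index_top]
    exact one_dvd _
  · have hne : NeZero (2 ^ n) := ⟨by positivity⟩
    set C : Subgroup (QuaternionGroup (2 ^ n)) := zpowers (QuaternionGroup.a 1) with hC
    have hCidx : C.index = 2 := by
      have h2 := C.card_mul_index
      rw [hC, Nat.card_zpowers, QuaternionGroup.orderOf_a_one, Nat.card_eq_fintype_card,
        QuaternionGroup.card] at h2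
      have h3 : 0 < 2 * 2 ^ n := by positivity
      apply Nat.eq_of_mul_eq_mul_left h3
      rw [h2]; ring
    set A' : Subgroup Q := C.map (e.symm : QuaternionGroup (2 ^ n) →* Q) with hA'
    have hA'idx : A'.index = 2 := by rw [hA', Subgroup.index_map_equiv, hCidx]
    have hA'cyc : IsCyclic A' :=
      isCyclic_of_surjective (C.equivMapOfInjective (e.symm : QuaternionGroup (2 ^ n) →* Q)
        e.symm.injective) (MulEquiv.surjective _)
    refine ⟨A'.map Q.subtype, ?_, ?_, ?_⟩
    · rintro _ ⟨x, -, rfl⟩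
      exact x.2
    · exact isCyclic_of_surjective (A'.equivMapOfInjective Q.subtype Q.subtype_injective)
        (MulEquiv.surjective _)
    · have h2 : (A'.map Q.subtype).subgroupOf Q = A' := by
        ext x
        rw [Subgroup.mem_subgroupOf]
        constructor
        · rintro ⟨y, hy, hyx⟩
          have : y = x := Subtype.ext hyx
          rwa [← this]
        · intro hx
          exact ⟨x, hx, rfl⟩
      rw [h2, hA'idx]

/-- Let `W` act coprimely on the solvable group `H`, all of whose abelian subgroups are cyclic.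
If `C_W(H)` is solvable then so is `W`. -/
theorem solvable_of_acts [Finite G] (H W : Subgroup G) (hWH : W ≤ normalizer (H : Set G))
    (hcop : (Nat.card W).Coprime (Nat.card H)) (hHs : Group.IsSolvable H)
    (hab : ∀ E : Subgroup G, E ≤ H → IsMulCommutative E → IsCyclic E)
    (hW1 : Group.IsSolvable (W ⊓ centralizer (H : Set G) : Subgroup G)) : Group.IsSolvable W := by
  classical
  have hex : ∀ (r : ℕ) [Fact r.Prime], ∃ P : Sylow r H,
      W ≤ normalizer ((P : Subgroup H).map H.subtype : Set G) := fun r _ =>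
    Cfsg.Agent.Lib.Helper1SylowInv.exists_invariant_sylow W H hWH hcop (Or.inr hHs) r
  obtain ⟨P2, hP2⟩ := hex 2
  set R2 : Subgroup G := (P2 : Subgroup H).map H.subtype with hR2
  have hR2H : R2 ≤ H := map_subtype_le _
  have hR2p : IsPGroup 2 R2 := P2.isPGroup'.map _
  set K2 : Subgroup G := W ⊓ centralizer (R2 : Set G) with hK2
  have hcycH : ∀ A : Subgroup H, (∀ a ∈ A, ∀ b ∈ A, a * b = b * a) → IsCyclic A := by
    intro A hA
    apply abelian_cyclic_sub' hab A
    refine ⟨⟨?_⟩⟩
    rintro ⟨a, ha⟩ ⟨b, hb⟩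
    exact Subtype.ext (hA a ha b hb)
  -- the commutator subgroup of `K2` centralizes `H`
  have hcomm : ⁅K2, K2⁆ ≤ W ⊓ centralizer (H : Set G) := by
    rw [commutator_le]
    intro a ha b hb
    rw [hK2, mem_inf] at ha hb
    refine mem_inf.2 ⟨?_, ?_⟩
    · rw [commutatorElement_def]
      exact mul_mem (mul_mem (mul_mem ha.1 hb.1) (inv_mem ha.1)) (inv_mem hb.1)
    · have hX : H ⊓ centralizer ({⁅a, b⁆} : Set G) = H := by
        apply eq_of_sylow_le inf_le_left
        intro r hr
        by_cases hr2 : r = 2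
        · subst hr2
          refine ⟨P2, le_inf hR2H ?_⟩
          intro x hx
          have hc : ⁅a, b⁆ ∈ centralizer (R2 : Set G) := by
            rw [commutatorElement_def]
            exact mul_mem (mul_mem (mul_mem ha.2 hb.2) (inv_mem ha.2)) (inv_mem hb.2)
          rw [mem_centralizer_singleton_iff]
          exact (mem_centralizer_iff.1 hc) x hx
        · obtain ⟨P, hP⟩ := hex r
          refine ⟨P, le_inf (map_subtype_le _) ?_⟩
          have hPc : IsCyclic P := Cfsg.Agent.Lib.Helper75ZaSYL.sylow_cyclic hcycH r hr2 P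
          have hRc : IsCyclic ((P : Subgroup H).map H.subtype) :=
            isCyclic_of_surjective ((P : Subgroup H).equivMapOfInjective H.subtype
              H.subtype_injective) (MulEquiv.surjective _)
          have hc := comm_mem_centralizer_of_cyclic _ hRc (hP ha.1) (hP hb.1)
          intro x hx
          rw [mem_centralizer_singleton_iff]
          exact (mem_centralizer_iff.1 hc) x hx
      rw [mem_centralizer_iff]
      intro h hh
      have h1 : h ∈ H ⊓ centralizer ({⁅a, b⁆} : Set G) := by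
        rw [hX]; exact hh
      exact mem_centralizer_singleton_iff.1 (mem_inf.1 h1).2
  have hK2s : Group.IsSolvable K2 := isSolvable_of_commutator_le hcomm hW1
  have hn : W ≤ normalizer (K2 : Set G) := by
    apply le_normalizer_of_forall_conj_mem
    intro w hw x hx
    rw [hK2, mem_inf] at hx
    refine mem_inf.2 ⟨mul_mem (mul_mem hw hx.1) (inv_mem hw), ?_⟩
    exact conj_mem_of_le_normalizer (normalizer_le_normalizer_centralizer R2) (hP2 hw) hx.2
  refine isSolvable_of_pgroup_quot 3 hn hK2s ?_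
  intro w hw
  by_cases h2 : 2 ∣ Nat.card H
  · have hWodd : Odd (Nat.card W) := by
      rw [← Nat.not_even_iff_odd, even_iff_two_dvd]
      intro h
      have := Nat.dvd_gcd h h2
      rw [hcop] at this
      exact absurd this (by norm_num)
    have how : orderOf w ∣ Nat.card W := by
      have := orderOf_dvd_natCard (⟨w, hw⟩ : W)
      rwa [← Subgroup.orderOf_coe] at this
    have hw0 : orderOf w ≠ 0 := (orderOf_pos w).ne'
    refine ⟨(orderOf w).factorization 3, mem_inf.2 ⟨pow_mem hw _, ?_⟩⟩
    have ho : orderOf (w ^ 3 ^ (orderOf w).factorization 3)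
        = orderOf w / 3 ^ (orderOf w).factorization 3 :=
      orderOf_pow_of_dvd (by positivity) (Nat.ordProj_dvd _ _)
    obtain ⟨A, hAQ, hAc, hidx⟩ := two_subgroup' R2 hR2p (fun E hE => hab E (hE.trans hR2H))
    apply Cfsg.Agent.Lib.Helper11CyclicTwo.cyclic_index_two_aut R2 A hR2p hAQ hAc hidx
    · rw [ho]
      exact Odd.of_dvd_nat hWodd ((Nat.div_dvd_of_dvd (Nat.ordProj_dvd _ _)).trans how)
    · rw [ho]
      exact Nat.not_dvd_ordCompl Nat.prime_three hw0
    · exact pow_mem (hP2 hw) _
  · refine ⟨0, mem_inf.2 ⟨by simpa using hw, ?_⟩⟩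
    have h3 : Nat.card (P2 : Subgroup H) = 1 := by
      rw [Sylow.card_eq_multiplicity, Nat.factorization_eq_zero_of_not_dvd h2, pow_zero]
    have h4 : (P2 : Subgroup H) = ⊥ := Subgroup.card_eq_one.1 h3
    have h5 : R2 = ⊥ := by rw [hR2, h4, Subgroup.map_bot]
    rw [h5, mem_centralizer_iff]
    intro x hx
    have : x = 1 := hx
    rw [this]; simp

theorem normalizer_inf_le_normalizer_sup (A B : Subgroup G) :
    normalizer (A : Set G) ⊓ normalizer (B : Set G) ≤ normalizer ((A ⊔ B : Subgroup G) : Set G) := by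
  intro g hg
  rw [mem_inf] at hg
  rw [← Cfsg.Agent.Lib.Helper1Glauberman.conj_smul_eq_self_iff] at hg ⊢
  rw [← Cfsg.Agent.Lib.Helper1Glauberman.conj_smul_eq_self_iff] at hg
  rw [Subgroup.smul_sup, hg.1, hg.2]

theorem not_solvable_SL25 :
    ¬ Group.IsSolvable (Matrix.SpecialLinearGroup (Fin 2) (ZMod 5)) := by
  intro hs
  have ha : (2 : ZMod 5) ≠ 0 := by decide
  have ha2 : (2 : ZMod 5) ^ 2 ≠ 1 := by decide
  have : Fact (Nat.Prime 5) := ⟨by norm_num⟩
  have h1 : commutator (Matrix.SpecialLinearGroup (Fin 2) (ZMod 5)) = ⊤ :=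
    Matrix.SL2.commutator_eq_top ha ha2
  have hnt : Nontrivial (Matrix.SpecialLinearGroup (Fin 2) (ZMod 5)) := by
    refine ⟨⟨⟨!![1, 1; 0, 1], by simp [Matrix.det_fin_two]⟩, 1, ?_⟩⟩
    intro h
    have h2 := congrArg (fun M : Matrix.SpecialLinearGroup (Fin 2) (ZMod 5) => M.1 0 1) h
    simp at h2
  exact (Group.IsSolvable.commutator_lt_top_of_nontrivial
    (Matrix.SpecialLinearGroup (Fin 2) (ZMod 5))).ne h1

end Cfsg.Agent.Lib.Helper1TIHallSolv
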