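import Mathlib
import Cfsg.Prelude.Def_Blocks
import Cfsg.Prelude.Def_BlockLocal
import Cfsg.Agent.Lib.Helper20Rel

set_option autoImplicit false
set_option linter.unusedSectionVars false
set_option linter.unusedVariables false

/-! Ingredients of the Harris--Knörr correspondence. -/

namespace Cfsg.Agent.Lib.Helper20HK

open Cfsg
open Cfsg.Agent.Lib.Helper20Local Cfsg.Agent.Lib.Helper20Center Cfsg.Agent.Lib.Helper20Block
open Cfsg.Agent.Lib.Helper20Ideal Cfsg.Agent.Lib.Helper20Defect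
open Cfsg.Agent.Lib.Helper19Ind Cfsg.Agent.Lib.Helper20First Cfsg.Agent.Lib.Helper20Induced
open Cfsg.Agent.Lib.Helper4Char Cfsg.Agent.Lib.Helper4Char2
open Cfsg.Agent.Lib.Helper87Sylow Cfsg.Agent.Lib.Helper20Sub
open Cfsg.Agent.Lib.Helper20Conj Cfsg.Agent.Lib.Helper20DefCard Cfsg.Agent.Lib.Helper20Height
open Cfsg.Agent.Lib.Helper21Cover Cfsg.Agent.Lib.Helper21Cover4 Cfsg.Agent.Lib.Helper20Cov
open Cfsg.Agent.Lib.Helper20Fong Cfsg.Agent.Lib.Helper20Tower Cfsg.Agent.Lib.Helper80Transport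
open Cfsg.Agent.Lib.Helper82Quot Cfsg.Agent.Lib.Helper21FR Cfsg.Agent.Lib.Helper21FR2
open Cfsg.Agent.Lib.Helper20Down Cfsg.Agent.Lib.Helper20FRK Cfsg.Agent.Lib.Helper20Mid
open Cfsg.Agent.Lib.Helper20Major Cfsg.Agent.Lib.Helper20Ext Cfsg.Agent.Lib.Helper20Brauer
open Cfsg.Agent.Lib.Helper20Rel

variable {G : Type*} [Group G] [Fintype G] {M : Ideal Cfsg.AlgInt} {p : ℕ}

/-- central characters of a covering block and of the covered block agree on the invariant central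
elements supported on the normal subgroup. -/
theorem om_cover (hM : M.IsPrime) {N : Subgroup G} [Fintype N] [hN : N.Normal]
    {B : Set (IrrCharacter G)} (hB : IsPBlock M B) {b : Set (IrrCharacter N)} (hb : IsPBlock M b)
    (hcov : Cv B b) {χ : IrrCharacter G} (hχ : χ ∈ B) {θ : IrrCharacter N} (hθ : θ ∈ b)
    {a : G → ℂ} (ha : IsSC M a) (hsupp : ∀ g, g ∉ N → a g = 0) :
    MemLocalIdeal M (om (χ : G → ℂ) a - om (θ : N → ℂ) (res N a)) := by
  obtain ⟨χ₀, hχ₀, θ₀, hθ₀, h0⟩ := hcov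
  have hext : extendByZero N (res N a) = a := by
    funext g
    by_cases hg : g ∈ N
    · rw [extendByZero_of_mem N _ hg]; rfl
    · rw [extendByZero_of_not_mem N _ hg, hsupp g hg]
  have h1 := om_ext (F := res N a) (by rw [hext]; exact ha.1) h0
  rw [hext, om81_eq, om81_eq] at h1
  have h2 := sameBlock_om hM χ.2 χ₀.2 (IsPBlock.sameBlock hM hB hχ hχ₀) ha
  have h3 := sameBlock_om hM θ₀.2 θ.2 (IsPBlock.sameBlock hM hb hθ₀ hθ) (res_isSC N ha)
  have := liAdd hM h2 h3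
  rw [h1] at this
  rwa [sub_add_sub_cancel] at this

/-- if `c` covers `e`, then `c^G` covers `e^N`. -/
theorem covers_induced (hM : M.IsPrime) {N H : Subgroup G} [hN : N.Normal] [Fintype N] [Fintype H]
    [Fintype ↥(H ⊓ N)] [Fintype ((H ⊓ N).subgroupOf H)] [Fintype ((H ⊓ N).subgroupOf N)]
    {c : Set (IrrCharacter H)} {e : Set (IrrCharacter ↥(H ⊓ N))} {B : Set (IrrCharacter G)}
    {d : Set (IrrCharacter N)} (hcov : Cv c (down inf_le_left e))
    (hind : IsInducedBlock M H c B) (hed : IsInducedBlockIn M N (H ⊓ N) e d) : Cv B d := by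
  have := hM
  have hL' : ((H ⊓ N).subgroupOf H).Normal := by
    rw [Subgroup.inf_subgroupOf_left]; infer_instance
  rw [isInducedBlockIn_iff inf_le_right] at hed
  have he : IsPBlock M e := isPBlock_of_down inf_le_right hed.1
  apply (passman M N hind.2.1 hed.2.1).2
  intro χ hχ θ hθ n
  obtain ⟨ψ, hψ⟩ := IsPBlock.nonempty hM hind.1
  obtain ⟨ξ, hξ⟩ := IsPBlock.nonempty hM he
  have ha := isSC_classInd (M := M) hM (n : G)
  have A1 := isInducedBlock_om H hM hind hψ hχ ha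
  have A2 := om_cover hM hind.1 (isPBlock_down inf_le_left he) hcov hψ
    (θ := irrCongr (Subgroup.subgroupOfEquivOfLe inf_le_left).symm ξ) ⟨ξ, hξ, rfl⟩
    (res_isSC H ha) (by
      intro h hh
      simp only [res, classInd]
      rw [if_neg]
      intro hc
      apply hh
      obtain ⟨x, hx⟩ := isConj_iff.1 hc
      have hN' : (h : G) ∈ N := by
        rw [← hx]
        exact hN.conj_mem n n.2 x
      exact ⟨h.2, hN'⟩)
  have A3 := isInducedBlock_om ((H ⊓ N).subgroupOf N) hM hed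
    (ξ := irrCongr (Subgroup.subgroupOfEquivOfLe inf_le_right).symm ξ) ⟨ξ, hξ, rfl⟩ hθ
    (res_isSC N ha)
  rw [om_down] at A2 A3
  have e1 : resIn (inf_le_left : H ⊓ N ≤ H) (res H (classInd (n : G)))
      = resIn (inf_le_right : H ⊓ N ≤ N) (res N (classInd (n : G))) := rfl
  rw [e1] at A2
  rw [inducedCentralChar_eq, ← om_classInd (IsIrrCharacter.isClassFunction χ.2)]
  have h5 := liAdd hM (liSub hM A2 A1) A3
  convert h5 using 1
  ring

section Conj

variable {N L : Subgroup G} [Fintype N] [Fintype L]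

theorem classInd_equiv {X Y : Type*} [Group X] [Group Y] [Fintype X] [Fintype Y] (σ : X ≃* Y)
    (x x' : X) :
    classInd (σ x) (σ x') = classInd x x' := by
  classical
  simp only [classInd]
  have : IsConj (σ x) (σ x') ↔ IsConj x x' := by
    constructor
    · intro h
      have := σ.symm.toMonoidHom.map_isConj h
      simpa using this
    · intro h
      exact σ.toMonoidHom.map_isConj h
  simp only [this]

/-- relative induction commutes with conjugation. -/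
theorem isInducedBlockIn_cj [Fintype (L.subgroupOf N)] {h : G} (hL : ∀ g, g ∈ L ↔ h * g * h⁻¹ ∈ L)
    (hN : ∀ g, g ∈ N ↔ h * g * h⁻¹ ∈ N) (hLN : L ≤ N) {e : Set (IrrCharacter L)}
    {d : Set (IrrCharacter N)} (hed : IsInducedBlockIn M N L e d) :
    IsInducedBlockIn M N L (mapBlk (cjEquiv h L L hL) e) (mapBlk (cjEquiv h N N hN) d) := by
  refine ⟨isPBlock_mapBlk _ hed.1, isPBlock_mapBlk _ hed.2.1, ?_⟩
  rintro _ ⟨ξ, hξ, rfl⟩ _ ⟨θ, hθ, rfl⟩ n
  have h1 := hed.2.2 ξ hξ θ hθ ((cjEquiv h N N hN).symm n)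
  rw [inducedCentralCharIn_eq hLN] at h1 ⊢
  have e1 : resIn hLN (classInd n)
      = (resIn hLN (classInd ((cjEquiv h N N hN).symm n))) ∘ (cjEquiv h L L hL).symm := by
    funext l
    simp only [resIn, Function.comp]
    have e2 : (⟨(((cjEquiv h L L hL).symm l : L) : G), hLN ((cjEquiv h L L hL).symm l).2⟩ : N)
        = (cjEquiv h N N hN).symm ⟨(l : G), hLN l.2⟩ := rfl
    rw [e2, classInd_equiv]
  rw [e1, om_irrCongr, coe_irrCongr]
  have e3 := centralChar_comp (cjEquiv h N N hN) (θ : N → ℂ) ((cjEquiv h N N hN).symm n)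
  rw [MulEquiv.apply_symm_apply] at e3
  rw [e3]
  exact h1

theorem mem_iff_conj_mem_of_normal (hN : N.Normal) (h g : G) : g ∈ N ↔ h * g * h⁻¹ ∈ N :=
  ⟨fun hg => hN.conj_mem g hg h, fun hg => by
    have := hN.conj_mem _ hg h⁻¹
    have e : h⁻¹ * (h * g * h⁻¹) * h⁻¹⁻¹ = g := by group
    rwa [e] at this⟩

theorem image_cjI_eq_mapBlk (hN : N.Normal) (g : G) (d : Set (IrrCharacter N)) :
    (fun θ => cjI hN θ g⁻¹) '' d = mapBlk (cjEquiv g N N (mem_iff_conj_mem_of_normal hN g)) d := by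
  unfold mapBlk
  apply Set.image_congr
  intro θ _
  apply Subtype.ext
  funext n
  rw [cjI_apply, irrCongr_apply]
  exact congrArg _ (Subtype.ext (by rw [cjEquiv_symm_coe]; simp))

variable {H : Subgroup G} [Fintype H] [Fintype (L.subgroupOf H)]

theorem overT_cj (hLH : L ≤ H) {h : G} (hh : h ∈ H) (hL : ∀ g, g ∈ L ↔ h * g * h⁻¹ ∈ L)
    (ψ : IrrCharacter H) (ξ : IrrCharacter L) :
    OverT hLH ψ (irrCongr (cjEquiv h L L hL) ξ) ↔ OverT hLH ψ ξ := by
  unfold OverT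
  have e1 : (fun n : L => (ψ : H → ℂ) ⟨(n : G), hLH n.2⟩)
      = (fun n : L => (ψ : H → ℂ) ⟨(n : G), hLH n.2⟩) ∘ (cjEquiv h L L hL).symm := by
    funext l
    simp only [Function.comp]
    have e2 : (⟨(((cjEquiv h L L hL).symm l : L) : G), hLH ((cjEquiv h L L hL).symm l).2⟩ : H)
        = (⟨h, hh⟩ : H)⁻¹ * ⟨(l : G), hLH l.2⟩ * (⟨h, hh⟩ : H)⁻¹⁻¹ := by
      apply Subtype.ext
      simp [cjEquiv_symm_coe]
    rw [e2]
    exact (IsIrrCharacter.isClassFunction ψ.2 _ _).symm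
  rw [coe_irrCongr]
  conv_lhs => rw [e1]
  rw [classInner_comp]

theorem cv_cj (hLH : L ≤ H) {h : G} (hh : h ∈ H) (hL : ∀ g, g ∈ L ↔ h * g * h⁻¹ ∈ L)
    {c : Set (IrrCharacter H)} {e : Set (IrrCharacter L)}
    (hcov : Cv c (down hLH (mapBlk (cjEquiv h L L hL) e))) : Cv c (down hLH e) := by
  rw [cv_down_iff] at hcov ⊢
  obtain ⟨ψ, hψ, _, ⟨ξ, hξ, rfl⟩, ho⟩ := hcov
  exact ⟨ψ, hψ, ξ, hξ, (overT_cj hLH hh hL ψ ξ).1 ho⟩

theorem isDefectGroup_cjEquiv [Fact p.Prime] {h : G} (hL : ∀ g, g ∈ L ↔ h * g * h⁻¹ ∈ L)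
    {e : Set (IrrCharacter L)} {Q : Subgroup G}
    (hQ : IsDefectGroup p M e (Q.subgroupOf L)) :
    IsDefectGroup p M (mapBlk (cjEquiv h L L hL) e) ((cj h Q).subgroupOf L) := by
  have h1 := isDefectGroup_mapBlk (cjEquiv h L L hL) hQ
  convert h1 using 1
  ext x
  rw [Subgroup.mem_subgroupOf, mem_cj, Subgroup.mem_map]
  constructor
  · intro hx
    refine ⟨(cjEquiv h L L hL).symm x, hx, ?_⟩
    simp
  · rintro ⟨y, hy, rfl⟩
    have : h⁻¹ * (((cjEquiv h L L hL).toMonoidHom y : L) : G) * h = y := by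
      change h⁻¹ * (h * y * h⁻¹) * h = y
      group
    rw [this]
    exact hy

end Conj

theorem isPGroup_of_defectGroup [Fact p.Prime] {X : Type*} [Group X] [Fintype X]
    {B : Set (IrrCharacter X)} {D : Subgroup X} (h : IsDefectGroup p M B D) : IsPGroup p D := by
  obtain ⟨g, _, hS⟩ := isDefectGroup_iff.mp h
  exact hS.isPGroup

section Main

variable [Fact p.Prime] {N Q H : Subgroup G} [hN : N.Normal] [Fintype N] [Fintype H]
  [Fintype ↥(H ⊓ N)] [Fintype ((H ⊓ N).subgroupOf H)] [Fintype ((H ⊓ N).subgroupOf N)]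

theorem normal_inf_subgroupOf : ((H ⊓ N).subgroupOf H).Normal := by
  rw [Subgroup.inf_subgroupOf_left]; infer_instance

/-- Knörr's theorem inside `H = N_G(Q)`. -/
theorem map_inf_eq (hM : IsPModular p M) (hH : H = Subgroup.normalizer (Q : Set G)) (hQN : Q ≤ N)
    {e : Set (IrrCharacter ↥(H ⊓ N))} (he : IsPBlock M e)
    (heQ : IsDefectGroup p M e (Q.subgroupOf (H ⊓ N))) {c : Set (IrrCharacter H)}
    (hc : IsPBlock M c) (hcov : Cv c (down inf_le_left e)) {D' : Subgroup H}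
    (hD' : IsDefectGroup p M c D') : D'.map H.subtype ⊓ N = Q := by
  have hQH : Q ≤ H := by rw [hH]; exact Subgroup.le_normalizer
  have hL' : ((H ⊓ N).subgroupOf H).Normal := normal_inf_subgroupOf
  have hQn : (Q.subgroupOf H).Normal := by
    subst hH; exact Subgroup.normal_in_normalizer
  have hQL : Q.subgroupOf H ≤ (H ⊓ N).subgroupOf H := by
    intro x hx
    exact ⟨x.2, hQN hx⟩
  obtain ⟨x, hx⟩ := knorr hM (isPBlock_down inf_le_left he) hc hcov hQL
    ((isDefectGroup_down_iff inf_le_left Q).2 heQ) hD'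
  rw [cj_of_normal] at hx
  ext g
  constructor
  · rintro ⟨⟨y, hy, rfl⟩, hgN⟩
    have : y ∈ D' ⊓ (H ⊓ N).subgroupOf H := ⟨hy, ⟨y.2, hgN⟩⟩
    rw [hx] at this
    exact this
  · intro hg
    have : (⟨g, hQH hg⟩ : H) ∈ D' ⊓ (H ⊓ N).subgroupOf H := by
      rw [hx]; exact hg
    exact ⟨⟨_, this.1, rfl⟩, hQN hg⟩

theorem normalizer_le_of_inf_eq {P : Subgroup G} (h : P ⊓ N = Q) :
    Subgroup.normalizer (P : Set G) ≤ Subgroup.normalizer (Q : Set G) := by
  intro x hx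
  rw [Subgroup.mem_normalizer_iff] at hx ⊢
  intro g
  rw [← h]
  constructor
  · rintro ⟨h1, h2⟩
    exact ⟨(hx g).1 h1, hN.conj_mem g h2 x⟩
  · rintro ⟨h1, h2⟩
    exact ⟨(hx g).2 h1, (mem_iff_conj_mem_of_normal hN x g).2 h2⟩

/-- injectivity in the Harris--Knörr correspondence. -/
theorem hk_injective (hM : IsPModular p M) (hH : H = Subgroup.normalizer (Q : Set G))
    (hQN : Q ≤ N) {e : Set (IrrCharacter ↥(H ⊓ N))} (he : IsPBlock M e)
    (heQ : IsDefectGroup p M e (Q.subgroupOf (H ⊓ N))) {c₁ c₂ : Set (IrrCharacter H)}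
    (hcov₁ : Cv c₁ (down inf_le_left e)) (hcov₂ : Cv c₂ (down inf_le_left e))
    {B : Set (IrrCharacter G)} (h₁ : IsInducedBlock M H c₁ B) (h₂ : IsInducedBlock M H c₂ B) :
    c₁ = c₂ := by
  obtain ⟨D₁, hD₁⟩ := exists_defectGroup hM h₁.1
  obtain ⟨D₂, hD₂⟩ := exists_defectGroup hM h₂.1
  have e₁ := map_inf_eq hM hH hQN he heQ h₁.1 hcov₁ hD₁
  have e₂ := map_inf_eq hM hH hQN he heQ h₂.1 hcov₂ hD₂
  have n₁ : Subgroup.normalizer ((D₁.map H.subtype : Subgroup G) : Set G) ≤ H :=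
    (normalizer_le_of_inf_eq e₁).trans hH.ge
  have n₂ : Subgroup.normalizer ((D₂.map H.subtype : Subgroup G) : Set G) ≤ H :=
    (normalizer_le_of_inf_eq e₂).trans hH.ge
  have s₁ : (D₁.map H.subtype).subgroupOf H = D₁ :=
    Subgroup.comap_map_eq_self_of_injective (Subgroup.subtype_injective _) D₁
  have s₂ : (D₂.map H.subtype).subgroupOf H = D₂ :=
    Subgroup.comap_map_eq_self_of_injective (Subgroup.subtype_injective _) D₂
  have p₁ : IsPGroup p (D₁.map H.subtype) := (isPGroup_of_defectGroup hD₁).map _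
  have p₂ : IsPGroup p (D₂.map H.subtype) := (isPGroup_of_defectGroup hD₂).map _
  have hB₁ : IsDefectGroup p M B (D₁.map H.subtype) :=
    induced_defectGroup_of_le hM p₁ n₁ (by rw [s₁]; exact hD₁) h₁
  have hB₂ : IsDefectGroup p M B (D₂.map H.subtype) :=
    induced_defectGroup_of_le hM p₂ n₂ (by rw [s₂]; exact hD₂) h₂
  obtain ⟨t, ht⟩ := defectGroup_conj hM h₁.2.1 hB₁ hB₂
  have htQ : cj t Q = Q := by
    conv_lhs => rw [← e₁, cj_inf_normal, ← ht, e₂]
  have htH : t ∈ H := by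
    rw [hH]
    exact Helper80Trace.mem_normalizer_of_cj_le htQ.le
  have hD₁' := isDefectGroup_cj hD₁ (⟨t, htH⟩ : H)
  have e3 : cj (⟨t, htH⟩ : H) D₁ = D₂ := by
    rw [← s₂, ht]
    ext x
    rw [Subgroup.mem_subgroupOf, mem_cj, mem_cj]
    constructor
    · intro hx
      exact ⟨_, hx, rfl⟩
    · rintro ⟨y, hy, hyx⟩
      have : y = (⟨t, htH⟩ : H)⁻¹ * x * ⟨t, htH⟩ := Subtype.ext hyx
      rw [← this]; exact hy
  rw [e3] at hD₁'
  exact induced_unique_of_le hM p₂ n₂ (by rw [s₂]; exact hD₁') (by rw [s₂]; exact hD₂) h₁ h₂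

theorem inf_subgroupOf_eq_normalizer (hH : H = Subgroup.normalizer (Q : Set G)) (hQN : Q ≤ N) :
    (H ⊓ N).subgroupOf N = Subgroup.normalizer ((Q.subgroupOf N : Subgroup N) : Set N) := by
  rw [Subgroup.inf_subgroupOf_right, hH, normalizer_subgroupOf hQN]

theorem cjI_of_mem (θ : IrrCharacter N) {n : G} (hn : n ∈ N) : cjI hN θ n = θ := by
  apply Subtype.ext
  funext m
  rw [cjI_apply]
  exact IsIrrCharacter.isClassFunction θ.2 m ⟨n, hn⟩

/-- a block of `N_N(Q)` inducing a conjugate of `d` has defect group `Q`. -/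
theorem defect_of_induced_conj (hM : IsPModular p M) (hH : H = Subgroup.normalizer (Q : Set G))
    (hQ : IsPGroup p Q) (hQN : Q ≤ N) {d' : Set (IrrCharacter N)} {g₀ : G}
    (hd' : IsDefectGroup p M d' ((cj g₀ Q).subgroupOf N))
    {e' : Set (IrrCharacter ↥(H ⊓ N))}
    (hed' : IsInducedBlock M ((H ⊓ N).subgroupOf N) (down inf_le_right e') d') :
    IsDefectGroup p M d' (Q.subgroupOf N) ∧ IsDefectGroup p M e' (Q.subgroupOf (H ⊓ N)) := by
  have hK := inf_subgroupOf_eq_normalizer (H := H) hH hQN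
  have hQH : Q ≤ H := by rw [hH]; exact Subgroup.le_normalizer
  have hle : Q.subgroupOf N ≤ (H ⊓ N).subgroupOf N := by
    intro x hx
    exact ⟨hQH hx, x.2⟩
  have hnorm : ((Q.subgroupOf N).subgroupOf ((H ⊓ N).subgroupOf N)).Normal :=
    (Subgroup.normal_subgroupOf_iff_le_normalizer hle).2 hK.le
  have hQp : IsPGroup p (Q.subgroupOf N) := hQ.of_equiv (Subgroup.subgroupOfEquivOfLe hQN).symm
  have hQp' : IsPGroup p ((Q.subgroupOf N).subgroupOf ((H ⊓ N).subgroupOf N)) :=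
    hQp.of_equiv (Subgroup.subgroupOfEquivOfLe hle).symm
  obtain ⟨R, hR⟩ := exists_defectGroup hM hed'.1
  have h1 := le_defectGroup_of_normal hM _ hQp' hed'.1 hR
  obtain ⟨E, hE, hRE⟩ := defectGroup_le_of_induced ((H ⊓ N).subgroupOf N) hM hed' hR
  have hcard : Nat.card E = Nat.card (Q.subgroupOf N) := by
    rw [card_defectGroup hM hed'.2.1 hE, ← card_defectGroup hM hed'.2.1 hd',
      Nat.card_congr (Subgroup.subgroupOfEquivOfLe (cj_le_normal hQN g₀)).toEquiv, card_cj,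
      Nat.card_congr (Subgroup.subgroupOfEquivOfLe hQN).toEquiv]
  have h2 : Q.subgroupOf N ≤ R.map ((H ⊓ N).subgroupOf N).subtype := by
    intro x hx
    exact ⟨⟨x, hle hx⟩, h1 hx, rfl⟩
  have h3 : Q.subgroupOf N = E := Subgroup.eq_of_le_of_card_ge (h2.trans hRE) hcard.le
  refine ⟨h3 ▸ hE, ?_⟩
  rw [← isDefectGroup_down_iff inf_le_right Q]
  have h4 : (Q.subgroupOf N).subgroupOf ((H ⊓ N).subgroupOf N) = R := by
    apply le_antisymm h1
    intro x hx
    have : (x : N) ∈ E := hRE ⟨x, hx, rfl⟩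
    rw [← h3] at this
    exact this
  rw [h4]
  exact hR

/-- if `c^G` covers `d` then `c` covers the Brauer correspondent of `d`. -/
theorem hk_covers (hM : IsPModular p M) (hH : H = Subgroup.normalizer (Q : Set G))
    (hQ : IsPGroup p Q) (hQN : Q ≤ N) {d : Set (IrrCharacter N)} (hd : IsPBlock M d)
    (hdQ : IsDefectGroup p M d (Q.subgroupOf N)) {e : Set (IrrCharacter ↥(H ⊓ N))}
    (heQ : IsDefectGroup p M e (Q.subgroupOf (H ⊓ N)))
    (hed : IsInducedBlockIn M N (H ⊓ N) e d) {c : Set (IrrCharacter H)}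
    {B : Set (IrrCharacter G)} (hind : IsInducedBlock M H c B) (hcov : Cv B d) :
    Cv c (down inf_le_left e) := by
  have hPr := IsPModular.isPrime hM
  have := hPr
  have hK := inf_subgroupOf_eq_normalizer (H := H) hH hQN
  have hQH : Q ≤ H := by rw [hH]; exact Subgroup.le_normalizer
  have hQp : IsPGroup p (Q.subgroupOf N) := hQ.of_equiv (Subgroup.subgroupOfEquivOfLe hQN).symm
  -- a block `e'` covered by `c`
  obtain ⟨ψ, hψ⟩ := IsPBlock.nonempty hPr hind.1
  obtain ⟨ξ', hξ'⟩ := exists_under (N := (H ⊓ N).subgroupOf H) ψ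
  obtain ⟨e', he'⟩ := exists_down (inf_le_left : H ⊓ N ≤ H) (blockOf M (ξ' : _ → ℂ))
  have hbe' : IsPBlock M e' := isPBlock_of_down inf_le_left (by rw [he']; exact isPBlock_blockOf ξ')
  have hcov' : Cv c (down inf_le_left e') := by
    rw [he']
    exact ⟨ψ, hψ, ξ', mem_blockOf_self hPr ξ', hξ'⟩
  -- its induced block
  obtain ⟨d', hd'⟩ := Cfsg.Agent.S0919.result p M hM (Q.subgroupOf N) ((H ⊓ N).subgroupOf N) hQp
    (by rw [hK]; exact Subgroup.le_normalizer) (by rw [hK]; exact centralizer_le_normalizer' _)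
    hK.le (down inf_le_right e') (isPBlock_down inf_le_right hbe')
  have hcovd' : Cv B d' :=
    covers_induced hPr hcov' hind ((isInducedBlockIn_iff inf_le_right e' d').2 hd')
  -- `d'` is conjugate to `d`
  obtain ⟨χ, hχ, θ', hθ', ho⟩ := hcovd'
  obtain ⟨g, θ, hθ, hθe⟩ := (mem_orb hN d θ').1 (mem_orb_of_mem hN hind.2.1 hd hcov hχ ho)
  have hd'e : d' = (fun θ => cjI hN θ (g⁻¹)⁻¹) '' d := by
    apply IsPBlock.eq_of_mem hPr hd'.2.1 (isPBlock_image hN hd _) hθ'
    exact ⟨θ, hθ, by rw [hθe, inv_inv]⟩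
  have hdg : IsDefectGroup p M d' ((cj g⁻¹ Q).subgroupOf N) := by
    rw [hd'e]; exact isDefectGroup_image hQN hdQ g⁻¹
  obtain ⟨hd'Q, he'Q⟩ := defect_of_induced_conj hM hH hQ hQN hdg hd'
  obtain ⟨n, hn⟩ := defectGroup_conj hM hd'.2.1 hdg hd'Q
  -- the conjugating element can be taken in `H`
  have hcjQ : cj ((n : G) * g⁻¹) Q = Q := by
    rw [← cj_cj]
    ext x
    constructor
    · intro hx
      have hxN : x ∈ N := cj_le_normal (cj_le_normal hQN _) _ hx
      have : (⟨x, hxN⟩ : N) ∈ cj n ((cj g⁻¹ Q).subgroupOf N) := by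
        rw [mem_cj] at hx ⊢
        exact hx
      rw [← hn] at this
      exact this
    · intro hx
      have : (⟨x, hQN hx⟩ : N) ∈ Q.subgroupOf N := hx
      rw [hn, mem_cj] at this
      rw [mem_cj]
      exact this
  have hhH : (n : G) * g⁻¹ ∈ H := by
    rw [hH]
    exact Helper80Trace.mem_normalizer_of_cj_le hcjQ.le
  have hL : ∀ x, x ∈ H ⊓ N ↔ ((n : G) * g⁻¹) * x * ((n : G) * g⁻¹)⁻¹ ∈ H ⊓ N := by
    intro x
    constructor
    · rintro ⟨h1, h2⟩
      exact ⟨H.mul_mem (H.mul_mem hhH h1) (H.inv_mem hhH), hN.conj_mem x h2 _⟩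
    · rintro ⟨h1, h2⟩
      refine ⟨?_, (mem_iff_conj_mem_of_normal hN _ x).2 h2⟩
      have := H.mul_mem (H.mul_mem (H.inv_mem hhH) h1) hhH
      have e : ((n : G) * g⁻¹)⁻¹ * (((n : G) * g⁻¹) * x * ((n : G) * g⁻¹)⁻¹) * ((n : G) * g⁻¹)
          = x := by group
      rwa [e] at this
  have hd'e2 : d' = mapBlk (cjEquiv ((n : G) * g⁻¹) N N (mem_iff_conj_mem_of_normal hN _)) d := by
    rw [← image_cjI_eq_mapBlk, hd'e]
    apply Set.image_congr
    intro θ _
    have : ((n : G) * g⁻¹)⁻¹ = (g⁻¹)⁻¹ * (n : G)⁻¹ := by group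
    rw [this, ← cjI_cjI, cjI_of_mem _ (N.inv_mem n.2)]
  have h6 := isInducedBlockIn_cj hL (mem_iff_conj_mem_of_normal hN _) inf_le_right hed
  rw [← hd'e2, isInducedBlockIn_iff inf_le_right] at h6
  have h7 := isDefectGroup_cjEquiv hL heQ
  rw [hcjQ] at h7
  have h8 := induced_unique' hK hM hQp h6 hd' ((isDefectGroup_down_iff inf_le_right Q).2 h7)
  have h9 := down_injective inf_le_right h8
  rw [← h9] at hcov'
  exact cv_cj inf_le_left hhH hL hcov'

end Main

end Cfsg.Agent.Lib.Helper20HK
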