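import Mathlib
import Cfsg.Prelude.Def_Blocks
import Cfsg.Agent.Lib.Helper20HK
import Cfsg.Agent.Lib.Helper21DC
import Cfsg.Agent.Lib.Helper83Omega

set_option autoImplicit false
set_option linter.unusedSectionVars false
set_option linter.unusedVariables false

/-! A block containing a character which is trivial on a central `p`-subgroup `Z` and of defect
zero modulo `Z` has defect group `Z`. -/

namespace Cfsg.Agent.Lib.Helper20Canon

open Cfsg
open Cfsg.Agent.Lib.Helper20Local Cfsg.Agent.Lib.Helper20Center Cfsg.Agent.Lib.Helper20Block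
open Cfsg.Agent.Lib.Helper20Ideal Cfsg.Agent.Lib.Helper20Defect
open Cfsg.Agent.Lib.Helper20First Cfsg.Agent.Lib.Helper20Induced
open Cfsg.Agent.Lib.Helper4Char Cfsg.Agent.Lib.Helper4Char2
open Cfsg.Agent.Lib.Helper87Sylow Cfsg.Agent.Lib.Helper20DefCard Cfsg.Agent.Lib.Helper20Height
open Cfsg.Agent.Lib.Helper82Quot Cfsg.Agent.Lib.Helper20Brauer
open scoped ComplexConjugate

variable {C : Type*} [Group C] [Fintype C] {M : Ideal Cfsg.AlgInt} {p : ℕ} [Fact p.Prime]
  {Z : Subgroup C}

/-- if the `p`-part of `z` is outside the normal subgroup `Z`, the image of `z` modulo `Z` is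
`p`-singular. -/
theorem dvd_orderOf_quot [hZ : Z.Normal] {z y : C} (hy : IsPPart p z y) (hyZ : y ∉ Z) :
    p ∣ orderOf (z : C ⧸ Z) := by
  have hp : p.Prime := Fact.out
  by_contra hnd
  obtain ⟨w, rfl, hc, ⟨k, hk⟩, hw⟩ := hy
  apply hyZ
  set m := orderOf ((y * w : C) : C ⧸ Z) with hm
  have h1 : (y * w) ^ m ∈ Z := by
    rw [← QuotientGroup.eq_one_iff, QuotientGroup.mk_pow, hm, pow_orderOf_eq_one]
  have h2 : y ^ (m * orderOf w) ∈ Z := by
    have := Z.pow_mem h1 (orderOf w)
    rwa [← pow_mul, hc.mul_pow, mul_comm m, pow_mul w, pow_orderOf_eq_one, one_pow, mul_one,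
      mul_comm] at this
  have hcop : (m * orderOf w).Coprime (orderOf y) := by
    rw [hk]
    apply Nat.Coprime.pow_right
    exact Nat.Coprime.mul_left ((Nat.Prime.coprime_iff_not_dvd hp).2 hnd).symm
      ((Nat.Prime.coprime_iff_not_dvd hp).2 hw).symm
  obtain ⟨t, ht⟩ := exists_pow_eq_self_of_coprime hcop
  rw [← ht]
  exact Z.pow_mem h2 t

variable (hM : IsPModular p M) (hZp : IsPGroup p Z) (hZc : Z ≤ Subgroup.center C)
  {θ : IrrCharacter C} (hker : ∀ z ∈ Z, (θ : C → ℂ) z = (θ : C → ℂ) 1)
  (hdeg : (charDegree (θ : C → ℂ)).factorization p + (Nat.card Z).factorization p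
    = (Nat.card C).factorization p)

include hM hker hdeg in
theorem vanish_of_ppart [hZ : Z.Normal] {z y : C} (hy : IsPPart p z y) (hyZ : y ∉ Z) :
    (θ : C → ℂ) z = 0 := by
  classical
  obtain ⟨θ', rfl⟩ := exists_deflate (N := Z) θ hker
  rw [inflate_apply]
  apply Helper83Omega.vanish_of_defect_zero hM θ' _ (dvd_orderOf_quot hy hyZ)
  have e1 : charDegree ((inflate Z θ' : IrrCharacter C) : C → ℂ) = charDegree (θ' : C ⧸ Z → ℂ) := by
    unfold charDegree
    rw [inflate_apply]
    rfl
  rw [e1] at hdeg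
  have e2 := Subgroup.card_eq_card_quotient_mul_card_subgroup Z
  have e3 : (Nat.card C).factorization p
      = (Nat.card (C ⧸ Z)).factorization p + (Nat.card Z).factorization p := by
    rw [e2, Nat.factorization_mul Nat.card_pos.ne' Nat.card_pos.ne']
    rfl
  omega

theorem normal_of_le_center (hZc : Z ≤ Subgroup.center C) : Z.Normal :=
  ⟨fun n hn g => by
    have := Subgroup.mem_center_iff.1 (hZc hn) g
    rw [this, mul_inv_cancel_right]
    exact hn⟩

include hM hZp hZc hker hdeg in
/-- the norm of `θ` on the `p`-regular elements. -/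
theorem sum_regular :
    (Nat.card C : ℂ) = (Nat.card Z : ℂ) *
      ∑ x : C, (if p ∣ orderOf x then 0 else (θ : C → ℂ) x * conj ((θ : C → ℂ) x)) := by
  classical
  have hp : p.Prime := Fact.out
  have hZ : Z.Normal := normal_of_le_center hZc
  have h1 := classInner_irr_self θ.2
  unfold classInner at h1
  have hC0 : (Nat.card C : ℂ) ≠ 0 := by exact_mod_cast Nat.card_pos.ne'
  have h2 : ∑ g : C, (θ : C → ℂ) g * conj ((θ : C → ℂ) g) = (Nat.card C : ℂ) := by
    field_simp at h1
    exact h1
  have hcen : Subgroup.centralizer (Z : Set C) = ⊤ := by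
    rw [eq_top_iff]
    intro x _
    rw [Subgroup.mem_centralizer_iff]
    intro z hz
    exact (Subgroup.mem_center_iff.1 (hZc hz) x).symm
  have h3 := Helper21DC.sum_sections (D := Z) hp hZp ⟨0, by rw [hcen]; simp⟩
    (F := fun g => (θ : C → ℂ) g * conj ((θ : C → ℂ) g)) (by
      intro z y hy hyZ
      rw [vanish_of_ppart hM hker hdeg hy hyZ, zero_mul])
  rw [h2] at h3
  rw [h3]
  have h4 : ∀ y : Z, (∑ x : C, if p ∣ orderOf x then 0 else
      (θ : C → ℂ) (y * x) * conj ((θ : C → ℂ) (y * x)))
      = ∑ x : C, (if p ∣ orderOf x then 0 else (θ : C → ℂ) x * conj ((θ : C → ℂ) x)) := by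
    intro y
    apply Finset.sum_congr rfl
    intro x _
    have : (θ : C → ℂ) (y * x) = (θ : C → ℂ) x := by
      rw [← Subgroup.mem_center_iff.1 (hZc y.2) x]
      exact char_mul_of_mem_ker (IsIrrCharacter.isCharacter θ.2) x (hker y y.2)
    rw [this]
  rw [Finset.sum_congr rfl fun y _ => h4 y, Finset.sum_const, nsmul_eq_mul, Finset.card_univ,
    Nat.card_eq_fintype_card]

/-- the test element. -/
noncomputable def tst (p : ℕ) (Z : Subgroup C) (θ : IrrCharacter C) : C → ℂ := fun x =>
  if p ∣ orderOf x then 0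
  else ((charDegree (θ : C → ℂ) * Nat.card Z : ℕ) : ℂ) / (Nat.card C : ℂ) * conj ((θ : C → ℂ) x)

include hM hdeg in
theorem coef_mem : MemLocalRing M
    (((charDegree (θ : C → ℂ) * Nat.card Z : ℕ) : ℂ) / (Nat.card C : ℂ)) := by
  apply natCast_div_memRing hM
    (Nat.mul_ne_zero (Helper81Base.charDegree_pos θ).ne' Nat.card_pos.ne') Nat.card_pos.ne'
  rw [Nat.factorization_mul (Helper81Base.charDegree_pos θ).ne' Nat.card_pos.ne']
  exact hdeg.ge

include hM hdeg in
theorem isSC_tst : IsSC M (tst p Z θ) := by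
  have hPr := IsPModular.isPrime hM
  constructor
  · intro x g
    unfold tst
    have e1 : orderOf (g * x * g⁻¹) = orderOf x := by
      have := orderOf_injective (MulAut.conj g).toMonoidHom (MulAut.conj g).injective x
      simpa using this
    rw [e1, IsIrrCharacter.isClassFunction θ.2 x g]
  · intro x
    unfold tst
    split_ifs
    · exact memLocalRing_zero hPr
    · apply lrMul hPr (coef_mem hM hdeg)
      apply memLocalRing_of_isIntegral hPr
      exact map_isIntegral_int (starRingEnd ℂ)
        (IsCharacter.isIntegral (IsIrrCharacter.isCharacter θ.2) x)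

include hM hZp hZc hker hdeg in
theorem om_tst_self : om (θ : C → ℂ) (tst p Z θ) = 1 := by
  have h := sum_regular hM hZp hZc hker hdeg
  have hC0 : (Nat.card C : ℂ) ≠ 0 := by exact_mod_cast Nat.card_pos.ne'
  have hθ1 : (θ : C → ℂ) 1 ≠ 0 := by
    rw [← Helper81Base.charDegree_eq]
    exact_mod_cast (Helper81Base.charDegree_pos θ).ne'
  unfold om
  have e1 : ∑ g : C, tst p Z θ g * (θ : C → ℂ) g
      = ((charDegree (θ : C → ℂ) * Nat.card Z : ℕ) : ℂ) / (Nat.card C : ℂ) *
        ∑ x : C, (if p ∣ orderOf x then 0 else (θ : C → ℂ) x * conj ((θ : C → ℂ) x)) := by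
    rw [Finset.mul_sum]
    apply Finset.sum_congr rfl
    intro x _
    unfold tst
    split_ifs
    · simp
    · ring
  rw [e1]
  push_cast
  rw [Helper81Base.charDegree_eq]
  rw [div_mul_eq_mul_div, mul_assoc, ← h]
  field_simp

include hM hdeg in
/-- if the degree of `χ` has smaller valuation, the test element is killed. -/
theorem om_tst_mem {χ : IrrCharacter C}
    (hlt : (charDegree (χ : C → ℂ)).factorization p < (charDegree (θ : C → ℂ)).factorization p) :
    MemLocalIdeal M (om (χ : C → ℂ) (tst p Z θ)) := by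
  have hPr := IsPModular.isPrime hM
  rw [om_eq_sum_classes (IsIrrCharacter.isClassFunction χ.2) (isSC_tst hM hdeg).1]
  apply liSum hPr
  intro K _
  unfold tst
  split_ifs with hs
  · rw [zero_mul]; exact memLocalIdeal_zero hPr
  · have hθ1 : (θ : C → ℂ) 1 ≠ 0 := by
      rw [← Helper81Base.charDegree_eq]
      exact_mod_cast (Helper81Base.charDegree_pos θ).ne'
    have hχ1 : (χ : C → ℂ) 1 ≠ 0 := by
      rw [← Helper81Base.charDegree_eq]
      exact_mod_cast (Helper81Base.charDegree_pos χ).ne'
    have e : ((charDegree (θ : C → ℂ) * Nat.card Z : ℕ) : ℂ) / (Nat.card C : ℂ)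
        * conj ((θ : C → ℂ) (rep K)) * centralChar (χ : C → ℂ) (rep K)
        = ((charDegree (θ : C → ℂ) : ℕ) : ℂ) / ((charDegree (χ : C → ℂ) : ℕ) : ℂ) *
          (((charDegree (θ : C → ℂ) * Nat.card Z : ℕ) : ℂ) / (Nat.card C : ℂ) *
            (conj (centralChar (θ : C → ℂ) (rep K)) * (χ : C → ℂ) (rep K))) := by
      unfold centralChar
      rw [Helper81Base.charDegree_eq, Helper81Base.charDegree_eq]
      simp only [map_div₀, map_mul, Complex.conj_natCast]
      have hc1 : conj ((θ : C → ℂ) 1) = (θ : C → ℂ) 1 := by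
        rw [← Helper81Base.charDegree_eq, Complex.conj_natCast]
      rw [hc1]
      field_simp
    rw [e]
    apply liMulRight hPr
    · exact natCast_div_mem hM (Helper81Base.charDegree_pos θ).ne'
        (Helper81Base.charDegree_pos χ).ne' hlt
    · apply lrMul hPr (coef_mem hM hdeg)
      apply lrMul hPr
      · apply memLocalRing_of_isIntegral hPr
        exact map_isIntegral_int (starRingEnd ℂ) (centralChar_isIntegral θ.2 _)
      · apply memLocalRing_of_isIntegral hPr
        exact IsCharacter.isIntegral (IsIrrCharacter.isCharacter χ.2) _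

include hM hZp hZc hker hdeg in
/-- **the defect** of the block of `θ`. -/
theorem blockDefect_of_canonical {e : Set (IrrCharacter C)} (he : IsPBlock M e) (hθ : θ ∈ e) :
    blockDefect p e = (Nat.card Z).factorization p := by
  have hPr := IsPModular.isPrime hM
  have hmin : ∀ χ ∈ e, (charDegree (θ : C → ℂ)).factorization p
      ≤ (charDegree (χ : C → ℂ)).factorization p := by
    intro χ hχ
    by_contra hlt
    push Not at hlt
    have h1 := om_tst_mem (Z := Z) hM hdeg hlt
    have h2 := sameBlock_om hPr θ.2 χ.2 (IsPBlock.sameBlock hPr he hθ hχ) (isSC_tst (Z := Z) hM hdeg)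
    rw [om_tst_self hM hZp hZc hker hdeg] at h2
    have := liAdd hPr h2 h1
    rw [sub_add_cancel] at this
    exact not_memLocalIdeal_one hPr this
  unfold blockDefect
  have hinf : sInf ((fun χ : IrrCharacter C => (charDegree (χ : C → ℂ)).factorization p) '' e)
      = (charDegree (θ : C → ℂ)).factorization p := by
    apply le_antisymm
    · exact Nat.sInf_le ⟨θ, hθ, rfl⟩
    · apply le_csInf (Set.Nonempty.image _ ⟨θ, hθ⟩)
      rintro _ ⟨χ, hχ, rfl⟩
      exact hmin χ hχ
  rw [hinf]
  omega

include hM hZp hZc hker hdeg in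
theorem isDefectGroup_of_canonical {e : Set (IrrCharacter C)} (he : IsPBlock M e) (hθ : θ ∈ e) :
    IsDefectGroup p M e Z := by
  have hp : p.Prime := Fact.out
  have hZ : Z.Normal := normal_of_le_center hZc
  obtain ⟨D, hD⟩ := exists_defectGroup hM he
  have h1 := le_defectGroup_of_normal hM Z hZp he hD
  have h2 := card_defectGroup hM he hD
  rw [blockDefect_of_canonical hM hZp hZc hker hdeg he hθ] at h2
  obtain ⟨k, hk⟩ := IsPGroup.iff_card.1 hZp
  have h3 : p ^ (Nat.card Z).factorization p = Nat.card Z := by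
    rw [hk, hp.factorization_pow]
    simp
  rw [h3] at h2
  have : Z = D := Subgroup.eq_of_le_of_card_ge h1 h2.le
  rw [this]; exact hD

end Cfsg.Agent.Lib.Helper20Canon
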