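import Mathlib
import Cfsg.Prelude.Def_Blocks
import Cfsg.Prelude.Def_BrauerPairs
import Cfsg.Agent.Lib.Helper20Canon
import Cfsg.Agent.Lib.Helper80IQ
import Cfsg.Agent.Lib.Helper80Up
import Cfsg.Agent.Lib.Helper80Full2

set_option autoImplicit false
set_option linter.unusedSectionVars false
set_option linter.unusedVariables false

/-! A block `F` of `T` whose idempotent is the idempotent of a block `e` of a normal subgroup `C`
of `T`. -/

namespace Cfsg.Agent.Lib.Helper20Pair

open Cfsg
open Cfsg.Agent.Lib.Helper20Local Cfsg.Agent.Lib.Helper20Center Cfsg.Agent.Lib.Helper20Block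
open Cfsg.Agent.Lib.Helper20Ideal Cfsg.Agent.Lib.Helper20Defect
open Cfsg.Agent.Lib.Helper19Ind Cfsg.Agent.Lib.Helper20First Cfsg.Agent.Lib.Helper20Induced
open Cfsg.Agent.Lib.Helper4Char Cfsg.Agent.Lib.Helper4Char2
open Cfsg.Agent.Lib.Helper87Sylow Cfsg.Agent.Lib.Helper20Sub
open Cfsg.Agent.Lib.Helper20Conj Cfsg.Agent.Lib.Helper20DefCard Cfsg.Agent.Lib.Helper20Height
open Cfsg.Agent.Lib.Helper21Cover Cfsg.Agent.Lib.Helper21Cover4 Cfsg.Agent.Lib.Helper20Cov
open Cfsg.Agent.Lib.Helper20Fong Cfsg.Agent.Lib.Helper20Tower Cfsg.Agent.Lib.Helper80Transport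
open Cfsg.Agent.Lib.Helper82Quot Cfsg.Agent.Lib.Helper21FR Cfsg.Agent.Lib.Helper21FR2
open Cfsg.Agent.Lib.Helper20Down Cfsg.Agent.Lib.Helper20FRK Cfsg.Agent.Lib.Helper20Mid
open Cfsg.Agent.Lib.Helper20Major Cfsg.Agent.Lib.Helper20Ext Cfsg.Agent.Lib.Helper20Brauer
open Cfsg.Agent.Lib.Helper20Rel Cfsg.Agent.Lib.Helper20HK Cfsg.Agent.Lib.Helper80Brauer

variable {G : Type*} [Group G] [Fintype G] {M : Ideal Cfsg.AlgInt} {p : ℕ}

/-- Knörr's theorem for a stable block. -/
theorem inf_defectGroup_of_stable [Fact p.Prime] (hM : IsPModular p M) {N : Subgroup G}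
    [Fintype N] [hN : N.Normal] {b : Set (IrrCharacter N)} (hb : IsPBlock M b)
    (hst : Stable hN b) {B : Set (IrrCharacter G)} (hB : IsPBlock M B) (hcov : Cv B b)
    {D : Subgroup G} (hD : IsDefectGroup p M B D) :
    IsDefectGroup p M b ((D ⊓ N).subgroupOf N) := by
  obtain ⟨Q₀, hQ₀⟩ := exists_defectGroup hM hb
  have hQ₁ : (Q₀.map N.subtype).subgroupOf N = Q₀ :=
    Subgroup.comap_map_eq_self_of_injective (Subgroup.subtype_injective _) Q₀
  have hQle : Q₀.map N.subtype ≤ N := Subgroup.map_subtype_le Q₀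
  rw [← hQ₁] at hQ₀
  obtain ⟨x, hx⟩ := knorr hM hb hB hcov hQle hQ₀ hD
  have h1 := isDefectGroup_cj_of_stable hst hQle hQ₀ x
  rwa [← hx] at h1

section W

variable {C T : Subgroup G} [Fintype C] [Fintype T] [Fintype (C.subgroupOf T)] (hCT : C ≤ T)
  {e : Set (IrrCharacter C)} {F : Set (IrrCharacter T)}

theorem blockCoeff_eq_of_ext (h : ext T (blockCoeff F) = ext C (blockCoeff e)) :
    blockCoeff F = extendByZero (C.subgroupOf T) (blockCoeff (down hCT e)) := by
  funext t
  have h1 := congrFun h (t : G)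
  rw [ext_coe] at h1
  rw [h1]
  by_cases ht : (t : G) ∈ C
  · have ht' : t ∈ C.subgroupOf T := ht
    rw [extendByZero_of_mem _ _ ht', ext_mem _ ht]
    have := blockCoeff_mapBlk (Subgroup.subgroupOfEquivOfLe hCT).symm e ⟨(t : G), ht⟩
    rw [← this]
    rfl
  · have ht' : t ∉ C.subgroupOf T := ht
    rw [extendByZero_of_not_mem _ _ ht', ext_not_mem _ ht]

variable (hC' : (C.subgroupOf T).Normal)

include hC' hCT

theorem stable_of_ext (hM : M.IsPrime) (he : IsPBlock M e)
    (h : ext T (blockCoeff F) = ext C (blockCoeff e)) : Stable hC' (down hCT e) := by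
  apply stable_of_stabilizes
  intro x
  rw [stabilizesBlock_iff hM (isPBlock_down hCT he)]
  refine ⟨?_, ?_⟩
  · rw [Subgroup.normalizer_eq_top_iff.2 hC']; trivial
  · have e1 : ext (C.subgroupOf T) (blockCoeff (down hCT e)) = blockCoeff F := by
      rw [blockCoeff_eq_of_ext hCT h, ← subgroupBlockCoeff_eq_ext]
      rfl
    rw [e1]
    funext g
    rw [cjf_apply]
    have := blockCoeff_isClassFunction F g x⁻¹
    rwa [inv_inv] at this

theorem cv_of_ext (hM : M.IsPrime) (he : IsPBlock M e) (hF : IsPBlock M F)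
    (h : ext T (blockCoeff F) = ext C (blockCoeff e)) : Cv F (down hCT e) :=
  haveI := hC'
  covers_of_blockCoeff_eq hM (stable_of_ext hCT hC' hM he h) hF (blockCoeff_eq_of_ext hCT h)

theorem unique_of_ext (hM : M.IsPrime) (he : IsPBlock M e) (hF : IsPBlock M F)
    (h : ext T (blockCoeff F) = ext C (blockCoeff e)) {F' : Set (IrrCharacter T)}
    (hF' : IsPBlock M F') (hcov : Cv F' (down hCT e)) : F' = F := by
  have := hM
  have := hC'
  apply eq_of_covers_of_support hF hF' (isPBlock_down hCT he) (cv_of_ext hCT hC' hM he hF h) hcov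
  intro g hg
  rw [blockCoeff_eq_of_ext hCT h, extendByZero_of_not_mem _ _ hg]

variable [Fact p.Prime]

/-- Fong's formula for the defect. -/
theorem blockDefect_of_ext (hM : IsPModular p M) (he : IsPBlock M e) (hF : IsPBlock M F)
    (h : ext T (blockCoeff F) = ext C (blockCoeff e)) :
    blockDefect p F = blockDefect p e + (C.subgroupOf T).index.factorization p := by
  have hPr := IsPModular.isPrime hM
  have := hC'
  have hst := stable_of_ext hCT hC' hPr he h
  have hb := isPBlock_down (M := M) hCT he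
  obtain ⟨F', hF', hcv, hd⟩ := exists_covering_defect hM hb hst
  rw [unique_of_ext hCT hC' hPr he hF h hF' hcv, blockDefect_down] at hd
  obtain ⟨D, hD⟩ := exists_defectGroup hM hF
  have h3 := defect_add_index hM hb hF (cv_of_ext hCT hC' hPr he hF h) hD
  rw [blockDefect_down] at h3
  omega

/-- the defect groups of `e`. -/
theorem isDefectGroup_of_ext (hM : IsPModular p M) (he : IsPBlock M e) (hF : IsPBlock M F)
    (h : ext T (blockCoeff F) = ext C (blockCoeff e)) {D : Subgroup G}
    (hD : IsDefectGroup p M F (D.subgroupOf T)) :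
    IsDefectGroup p M e ((D ⊓ C).subgroupOf C) := by
  have hPr := IsPModular.isPrime hM
  have := hC'
  have h1 := inf_defectGroup_of_stable hM (isPBlock_down hCT he) (stable_of_ext hCT hC' hPr he h)
    hF (cv_of_ext hCT hC' hPr he hF h) hD
  rw [← isDefectGroup_down_iff hCT]
  convert h1 using 2
  ext x
  simp [Subgroup.mem_subgroupOf]

end W

end Cfsg.Agent.Lib.Helper20Pair
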