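import Mathlib
import Cfsg.Agent.Lib.Helper20SNDefs

/-!
Elementary facts on `TypeII L A r y` (project 73, pieces t1 t2 t345).
-/

set_option autoImplicit false

namespace Cfsg.Agent.Lib.Helper20SNT

open Cfsg.Agent.Lib.Helper20SNDefs

/-- an element of `A` whose order is a power of `r` is trivial. -/
theorem TypeII.eq_one_of_pow {G : Type*} [Group G] [Finite G] {L A : Subgroup G} {r : ℕ} {y : G}
    (h : TypeII L A r y) {a : G} (ha : a ∈ A) {k : ℕ} (hk : a ^ (r ^ k) = 1) : a = 1 := by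
  have h1 : orderOf a ∣ r ^ k := orderOf_dvd_of_pow_eq_one hk
  have h2 : orderOf a ∣ Nat.card A := by
    have : orderOf (⟨a, ha⟩ : A) = orderOf a := Subgroup.orderOf_mk a ha
    rw [← this]; exact orderOf_dvd_natCard _
  have h3 : (Nat.card A).Coprime (r ^ k) := h.cop.pow_right k
  have h4 : orderOf a ∣ 1 := by
    have := Nat.dvd_gcd h2 h1
    rwa [h3] at this
  exact orderOf_eq_one_iff.1 (Nat.dvd_one.1 h4)

/-- `A ∩ ⟨y⟩ = 1`. -/
theorem TypeII.eq_one_of_mem_zpowers {G : Type*} [Group G] [Finite G] {L A : Subgroup G} {r : ℕ} {y : G}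
    (h : TypeII L A r y) {a : G} (ha : a ∈ A) (hy : a ∈ Subgroup.zpowers y) : a = 1 := by
  obtain ⟨k, hk⟩ := h.ord
  apply TypeII.eq_one_of_pow h ha (k := k)
  obtain ⟨m, rfl⟩ := Subgroup.mem_zpowers_iff.1 hy
  rw [← zpow_natCast, ← zpow_mul, mul_comm, zpow_mul, zpow_natCast, ← hk, pow_orderOf_eq_one, one_zpow]

theorem TypeII.pow_mem {G : Type*} [Group G] {L A : Subgroup G} {r : ℕ} {y : G}
    (h : TypeII L A r y) (i : ℕ) : y ^ i ∈ L := L.pow_mem h.mem i

/-- piece `t5` -/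
theorem TypeII.center_le {G : Type*} [Group G] {L A : Subgroup G} {r : ℕ} {y : G}
    (h : TypeII L A r y) {x : G} (hx : x ∈ L) (hc : x * y = y * x) : x ∈ Subgroup.zpowers y := by
  obtain ⟨a, ha, i, rfl⟩ := h.gen x hx
  have h1 : a * y = y * a := by
    have h2 : a * y ^ i * y = y * a * y ^ i := by rw [hc, mul_assoc]
    have h3 : a * y * y ^ i = y * a * y ^ i := by
      rw [← h2, mul_assoc, mul_assoc, ← pow_succ, ← pow_succ']
    exact mul_right_cancel h3
  rw [h.fpf a ha h1, one_mul]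
  exact Subgroup.npow_mem_zpowers y i

/-- piece `t3` -/
theorem TypeII.le_zpowers {G : Type*} [Group G] [Finite G] {L A : Subgroup G} {r : ℕ} {y : G}
    (h : TypeII L A r y) {R : Subgroup G} (hRL : R ≤ L) (hR : IsPGroup r R) (hy : y ∈ R) :
    R ≤ Subgroup.zpowers y := by
  intro u hu
  obtain ⟨a, ha, i, rfl⟩ := h.gen u (hRL hu)
  have haR : a ∈ R := by
    have := R.mul_mem hu (R.inv_mem (R.pow_mem hy i))
    simpa using this
  obtain ⟨k, hk⟩ := hR ⟨a, haR⟩
  have h1 : a ^ (r ^ k) = 1 := by simpa using congrArg Subtype.val hk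
  rw [TypeII.eq_one_of_pow h ha h1, one_mul]
  exact Subgroup.npow_mem_zpowers y i

/-- piece `t4` -/
theorem TypeII.normalizer_zpowers {G : Type*} [Group G] [Finite G] {L A : Subgroup G} {r : ℕ} {y : G}
    (h : TypeII L A r y) {g : G} (hg : g ∈ L) (hgy : g * y * g⁻¹ ∈ Subgroup.zpowers y) :
    g ∈ Subgroup.zpowers y := by
  obtain ⟨a, ha, i, rfl⟩ := h.gen g hg
  have h1 : a * y ^ i * y * (a * y ^ i)⁻¹ = a * y * a⁻¹ := by
    rw [mul_inv_rev, mul_assoc a, ← pow_succ, pow_succ', mul_assoc, mul_assoc, mul_assoc,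
      mul_inv_cancel_left]
  rw [h1] at hgy
  have h2 : a * (y * a⁻¹ * y⁻¹) ∈ A := A.mul_mem ha (h.norm y h.mem _ (A.inv_mem ha))
  have h3 : a * (y * a⁻¹ * y⁻¹) ∈ Subgroup.zpowers y := by
    have := (Subgroup.zpowers y).mul_mem hgy ((Subgroup.zpowers y).inv_mem (Subgroup.mem_zpowers y))
    have h4 : a * y * a⁻¹ * y⁻¹ = a * (y * a⁻¹ * y⁻¹) := by group
    rwa [h4] at this
  have h5 := TypeII.eq_one_of_mem_zpowers h h2 h3
  have h6 : a * y = y * a := by
    have : a * y * a⁻¹ * y⁻¹ = 1 := by rw [← h5]; group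
    have h7 : a * y * a⁻¹ = y := by
      have := mul_inv_eq_one.1 this
      exact this
    calc a * y = a * y * a⁻¹ * a := by group
      _ = y * a := by rw [h7]
  rw [h.fpf a ha h6, one_mul]
  exact Subgroup.npow_mem_zpowers y i

/-- `(a y^i)^m ∈ A y^(i m)`. -/
theorem TypeII.pow_form {G : Type*} [Group G] {L A : Subgroup G} {r : ℕ} {y : G}
    (h : TypeII L A r y) {a : G} (ha : a ∈ A) (i m : ℕ) :
    ∃ a' ∈ A, (a * y ^ i) ^ m = a' * y ^ (i * m) := by
  induction m with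
  | zero => exact ⟨1, A.one_mem, by simp⟩
  | succ m ih =>
    obtain ⟨a', ha', he⟩ := ih
    refine ⟨a' * (y ^ (i * m) * a * (y ^ (i * m))⁻¹), A.mul_mem ha' (h.norm _ (TypeII.pow_mem h _) a ha), ?_⟩
    rw [pow_succ, he, Nat.mul_succ, pow_add]
    group

/-- piece `t1` -/
theorem TypeII.mem_of_coprime {G : Type*} [Group G] [Finite G] {L A : Subgroup G} {r : ℕ} {y : G}
    (h : TypeII L A r y) {u : G} (hu : u ∈ L) (hc : (orderOf u).Coprime r) : u ∈ A := by
  obtain ⟨a, ha, i, he⟩ := h.gen u hu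
  obtain ⟨k, hk⟩ := h.ord
  obtain ⟨a', ha', he'⟩ := TypeII.pow_form h ha i (r ^ k)
  have h1 : u ^ (r ^ k) ∈ A := by
    rw [he, he', pow_mul', ← hk, pow_orderOf_eq_one, one_pow, mul_one]
    exact ha'
  have h2 : (orderOf u).Coprime (r ^ k) := hc.pow_right k
  obtain ⟨m, hm⟩ := exists_pow_eq_self_of_coprime h2.symm
  rw [← hm]
  exact A.pow_mem h1 m

/-- piece `t2` -/
theorem TypeII.central_of_normal {G : Type*} [Group G] [Finite G] {L A : Subgroup G} {r : ℕ} {y : G}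
    (h : TypeII L A r y) (hna : ¬ Ab L) {Q : Subgroup G} (hQL : Q ≤ L) (hQ : IsPGroup r Q)
    (hn : ∀ g ∈ L, ∀ u ∈ Q, g * u * g⁻¹ ∈ Q) : ∀ u ∈ Q, ∀ g ∈ L, g * u = u * g := by
  -- `Q` commutes with `A`
  have hQA : ∀ u ∈ Q, ∀ a ∈ A, a * u = u * a := by
    intro u hu a ha
    have h1 : a * u * a⁻¹ * u⁻¹ ∈ Q := Q.mul_mem (hn a (h.le ha) u hu) (Q.inv_mem hu)
    have h2 : a * u * a⁻¹ * u⁻¹ ∈ A := by
      have := A.mul_mem ha (h.norm u (hQL hu) _ (A.inv_mem ha))
      have h3 : a * (u * a⁻¹ * u⁻¹) = a * u * a⁻¹ * u⁻¹ := by group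
      rwa [h3] at this
    obtain ⟨k, hk⟩ := hQ ⟨_, h1⟩
    have h3 : (a * u * a⁻¹ * u⁻¹) ^ (r ^ k) = 1 := by simpa using congrArg Subtype.val hk
    have h4 := TypeII.eq_one_of_pow h h2 h3
    have h5 : a * u * a⁻¹ = u := mul_inv_eq_one.1 h4
    calc a * u = a * u * a⁻¹ * a := by group
      _ = u * a := by rw [h5]
  obtain ⟨k, hk⟩ := h.ord
  intro u hu
  obtain ⟨a, ha, i, he⟩ := h.gen u (hQL hu)
  -- `y ^ i` commutes with `A`
  have hyA : ∀ b ∈ A, b * y ^ i = y ^ i * b := by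
    intro b hb
    have h1 := hQA u hu b hb
    rw [he] at h1
    have h2 : b * a = a * b := h.ab b hb a ha
    have h3 : a * (b * y ^ i) = a * (y ^ i * b) := by
      calc a * (b * y ^ i) = (a * b) * y ^ i := by rw [mul_assoc]
        _ = b * (a * y ^ i) := by rw [← h2, mul_assoc]
        _ = a * y ^ i * b := h1
        _ = a * (y ^ i * b) := by rw [mul_assoc]
    exact mul_left_cancel h3
  have hri : r ∣ i := by
    by_contra hri
    have hcop : (orderOf y).Coprime i := by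
      rw [hk]
      exact ((Nat.Prime.coprime_iff_not_dvd h.prime).2 hri).pow_left k
    obtain ⟨m, hm⟩ := exists_pow_eq_self_of_coprime hcop.symm
    have hyA' : ∀ b ∈ A, b * y = y * b := by
      intro b hb
      have : Commute b (y ^ i) := hyA b hb
      have h2 : Commute b ((y ^ i) ^ m) := this.pow_right m
      rw [hm] at h2
      exact h2
    apply hna
    intro g1 hg1 g2 hg2
    obtain ⟨a1, ha1, i1, rfl⟩ := h.gen g1 hg1
    obtain ⟨a2, ha2, i2, rfl⟩ := h.gen g2 hg2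
    rw [h.fpf a1 ha1 (hyA' a1 ha1), h.fpf a2 ha2 (hyA' a2 ha2), one_mul, one_mul, ← pow_add, ← pow_add,
      add_comm]
  obtain ⟨j, rfl⟩ := hri
  have hcen : ∀ g ∈ L, g * y ^ (r * j) = y ^ (r * j) * g := by
    intro g hg
    have : Commute g (y ^ r) := h.cen g hg
    rw [pow_mul]
    exact this.pow_right j
  -- `a` is an `r`-element
  obtain ⟨k', hk'⟩ := hQ ⟨u, hu⟩
  have hu1 : u ^ (r ^ k') = 1 := by simpa using congrArg Subtype.val hk'
  have hcomm : Commute a (y ^ (r * j)) := hcen a (h.le ha)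
  have ha1 : a ^ (r ^ (k + k')) = 1 := by
    have h1 : u ^ (r ^ (k + k')) = 1 := by
      rw [pow_add, mul_comm, pow_mul, hu1, one_pow]
    rw [he, hcomm.mul_pow] at h1
    have h2 : (y ^ (r * j)) ^ (r ^ (k + k')) = 1 := by
      rw [← pow_mul, mul_comm, pow_mul, pow_add r, pow_mul y, ← hk, pow_orderOf_eq_one, one_pow, one_pow]
    rwa [h2, mul_one] at h1
  have ha2 := TypeII.eq_one_of_pow h ha ha1
  intro g hg
  rw [he, ha2, one_mul]
  exact hcen g hg

end Cfsg.Agent.Lib.Helper20SNT
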