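import Cfsg.Agent.Lib.Helper20SNDefs

set_option autoImplicit false

/-! Project 73, piece `cent`. -/

namespace Cfsg.Agent.Lib.Helper66SNCent

open Cfsg.Agent.Lib.Helper20SNDefs

/-- in a finite cyclic group, two elements of the same prime order generate the same subgroup. -/
theorem mem_zpowers_of_order {G : Type*} [Group G] [Finite G] (y u v : G) (p : ℕ) (hp : p.Prime)
    (hu : u ∈ Subgroup.zpowers y) (hv : v ∈ Subgroup.zpowers y) (hou : orderOf u = p)
    (hov : orderOf v = p) : v ∈ Subgroup.zpowers u := by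
  classical
  have _ : Fintype (Subgroup.zpowers y) := Fintype.ofFinite _
  set u' : Subgroup.zpowers y := ⟨u, hu⟩ with hu'
  set v' : Subgroup.zpowers y := ⟨v, hv⟩ with hv'
  have hle := IsCyclic.card_pow_eq_one_le (α := Subgroup.zpowers y) hp.pos
  have hou' : orderOf u' = p := by rw [← hou, hu', Subgroup.orderOf_mk]
  have hov' : orderOf v' = p := by rw [← hov, hv', Subgroup.orderOf_mk]
  have hsub : ((Subgroup.zpowers u' : Set (Subgroup.zpowers y)).toFinset) ⊆
      Finset.univ.filter (fun a : Subgroup.zpowers y => a ^ p = 1) := by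
    intro a ha
    rw [Set.mem_toFinset] at ha
    obtain ⟨k, rfl⟩ := Subgroup.mem_zpowers_iff.mp ha
    simp only [Finset.mem_filter, Finset.mem_univ, true_and]
    rw [← zpow_natCast, ← zpow_mul, mul_comm, zpow_mul, zpow_natCast, ← hou', pow_orderOf_eq_one,
      one_zpow]
  have hcard : ((Subgroup.zpowers u' : Set (Subgroup.zpowers y)).toFinset).card = p := by
    rw [Set.toFinset_card, ← Nat.card_eq_fintype_card]
    exact (Nat.card_zpowers u').trans hou'
  have heq := Finset.eq_of_subset_of_card_le hsub (by rw [hcard]; exact hle)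
  have hv1 : v' ∈ Finset.univ.filter (fun a : Subgroup.zpowers y => a ^ p = 1) := by
    simp only [Finset.mem_filter, Finset.mem_univ, true_and]
    rw [← hov', pow_orderOf_eq_one]
  rw [← heq, Set.mem_toFinset] at hv1
  obtain ⟨k, hk⟩ := Subgroup.mem_zpowers_iff.mp hv1
  refine Subgroup.mem_zpowers_iff.mpr ⟨k, ?_⟩
  have := congrArg Subtype.val hk
  simpa [hu', hv'] using this

theorem cent_ab {G : Type*} [Group G] [Finite G] [IsSimpleGroup G] (hP : PP G)
    (hna : ¬ Ab (⊤ : Subgroup G))
    (hIH : ∀ L : Subgroup G, L ≠ ⊤ → ¬ Group.IsSolvable L → IsSimpleGroup L)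
    (hS : ∀ (p : ℕ) [Fact p.Prime] (P : Sylow p G), Ab (P : Subgroup G))
    (solv_struct : ∀ L : Subgroup G, Group.IsSolvable L → ¬ Ab L →
      (∃ p : ℕ, p.Prime ∧ IsPGroup p L) ∨ ∃ (A : Subgroup G) (r : ℕ) (y : G), TypeII L A r y)
    (t3 : ∀ {L A : Subgroup G} {r : ℕ} {y : G}, TypeII L A r y → ∀ {R : Subgroup G}, R ≤ L →
      IsPGroup r R → y ∈ R → R ≤ Subgroup.zpowers y)
    (t4 : ∀ {L A : Subgroup G} {r : ℕ} {y : G}, TypeII L A r y → ∀ {g : G}, g ∈ L →
      g * y * g⁻¹ ∈ Subgroup.zpowers y → g ∈ Subgroup.zpowers y)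
    (t5 : ∀ {L A : Subgroup G} {r : ℕ} {y : G}, TypeII L A r y → ∀ {x : G}, x ∈ L →
      x * y = y * x → x ∈ Subgroup.zpowers y) : CA G := by
  intro x0 hx0 a b ha0 hb0
  by_contra hab
  -- replace `x0` by a power of prime order
  have hord : orderOf x0 ≠ 1 := fun h => hx0 (orderOf_eq_one_iff.mp h)
  obtain ⟨p, hp, hpd⟩ := Nat.exists_prime_and_dvd hord
  have _ : Fact p.Prime := ⟨hp⟩
  set x := x0 ^ (orderOf x0 / p) with hx
  have hox : orderOf x = p := orderOf_pow_orderOf_div (orderOf_pos x0).ne' hpd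
  have hx1 : x ≠ 1 := by
    intro h
    rw [h, orderOf_one] at hox
    exact hp.one_lt.ne hox
  have ha : a * x = x * a := ((Commute.pow_right (show Commute a x0 from ha0)) _).eq
  have hb : b * x = x * b := ((Commute.pow_right (show Commute b x0 from hb0)) _).eq
  set H := Subgroup.centralizer ({x} : Set G) with hH
  have memH : ∀ g : G, g ∈ H ↔ g * x = x * g := fun g => Subgroup.mem_centralizer_singleton_iff
  have hHna : ¬ Ab H := fun h => hab (h a ((memH a).2 ha) b ((memH b).2 hb))
  have hxH : x ∈ H := (memH x).2 rfl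
  have hHtop : H ≠ ⊤ := by
    intro h
    have hxc : x ∈ Subgroup.center G := by
      rw [Subgroup.mem_center_iff]
      intro g
      exact (memH g).1 (h ▸ Subgroup.mem_top g)
    rcases (inferInstance : (Subgroup.center G).Normal).eq_bot_or_eq_top with h1 | h1
    · rw [h1] at hxc
      exact hx1 (Subgroup.mem_bot.mp hxc)
    · apply hna
      intro u _ v _
      have : v ∈ Subgroup.center G := h1 ▸ Subgroup.mem_top v
      exact (Subgroup.mem_center_iff.mp this u)
  have hHsolv : Group.IsSolvable H := by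
    by_contra hns
    have hsim := hIH H hHtop hns
    have hxc : (⟨x, hxH⟩ : H) ∈ Subgroup.center H := by
      rw [Subgroup.mem_center_iff]
      intro g
      exact Subtype.ext ((memH g).1 g.2)
    rcases (inferInstance : (Subgroup.center H).Normal).eq_bot_or_eq_top with h1 | h1
    · rw [h1] at hxc
      exact hx1 (congrArg Subtype.val (Subgroup.mem_bot.mp hxc))
    · apply hHna
      intro u hu v hv
      have : (⟨v, hv⟩ : H) ∈ Subgroup.center H := h1 ▸ Subgroup.mem_top _
      exact congrArg Subtype.val (Subgroup.mem_center_iff.mp this ⟨u, hu⟩)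
  rcases solv_struct H hHsolv hHna with ⟨q, hq, hqH⟩ | ⟨A, r, y, hT⟩
  · have _ : Fact q.Prime := ⟨hq⟩
    obtain ⟨Q, hQ⟩ := hqH.exists_le_sylow
    exact hHna ((hS q Q).mono hQ)
  · have hr := hT.prime
    have _ : Fact r.Prime := ⟨hr⟩
    have hxy : x ∈ Subgroup.zpowers y := t5 hT hxH ((memH y).1 hT.mem).symm
    obtain ⟨k, hk⟩ := hT.ord
    have hpr : p = r := by
      have h1 : orderOf x ∣ orderOf y := orderOf_dvd_of_mem_zpowers hxy
      rw [hox, hk] at h1
      exact (Nat.prime_dvd_prime_iff_eq hp hr).mp (hp.dvd_of_dvd_pow h1)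
    subst hpr
    have hyP : IsPGroup p (Subgroup.zpowers y) := by
      apply IsPGroup.of_card (n := k)
      rw [Nat.card_zpowers, hk]
    obtain ⟨P, hPy⟩ := hyP.exists_le_sylow
    have hPab := hS p P
    have hxP : x ∈ (P : Subgroup G) := hPy hxy
    have hyP' : y ∈ (P : Subgroup G) := hPy (Subgroup.mem_zpowers y)
    have hPH : (P : Subgroup G) ≤ H := fun g hg => (memH g).2 (hPab g hg x hxP)
    have hPle : (P : Subgroup G) ≤ Subgroup.zpowers y := t3 hT hPH P.2 hyP'
    have hNP : Subgroup.normalizer ((P : Subgroup G) : Set G) ≤ (P : Subgroup G) := by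
      intro g hg
      have hg' := Subgroup.mem_normalizer_iff.mp hg
      have h1 : g * x * g⁻¹ ∈ Subgroup.zpowers y := hPle ((hg' x).1 hxP)
      have ho : orderOf (g * x * g⁻¹) = p := by
        rw [← hox]
        exact (SemiconjBy.orderOf_eq g (show SemiconjBy g x (g * x * g⁻¹) by
          unfold SemiconjBy; group)).symm
      have h2 : x ∈ Subgroup.zpowers (g * x * g⁻¹) :=
        mem_zpowers_of_order y _ _ p hp h1 hxy ho hox
      have hgH : g ∈ H := by
        apply hP.mem hHna
        intro h hh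
        rw [memH] at hh ⊢
        obtain ⟨m, hm⟩ := Subgroup.mem_zpowers_iff.mp h2
        have hc : Commute (g * h * g⁻¹) (g * x * g⁻¹) := by
          show g * h * g⁻¹ * (g * x * g⁻¹) = g * x * g⁻¹ * (g * h * g⁻¹)
          have e1 : g * h * g⁻¹ * (g * x * g⁻¹) = g * (h * x) * g⁻¹ := by group
          have e2 : g * x * g⁻¹ * (g * h * g⁻¹) = g * (x * h) * g⁻¹ := by group
          rw [e1, e2, hh]
        rw [← hm]
        exact (hc.zpow_right m).eq
      have h3 : g * y * g⁻¹ ∈ Subgroup.zpowers y := hPle ((hg' y).1 hyP')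
      exact hPy (t4 hT hgH h3)
    have hNC : Subgroup.normalizer ((P : Subgroup G) : Set G) ≤
        Subgroup.centralizer ((P : Subgroup G) : Set G) := by
      intro g hg
      rw [Subgroup.mem_centralizer_iff]
      intro h hh
      exact hPab h hh g (hNP hg)
    have hcompl := MonoidHom.ker_transferSylow_isComplement' P hNC
    rcases (inferInstance : (MonoidHom.transferSylow P hNC).ker.Normal).eq_bot_or_eq_top with h1 | h1
    · rw [h1] at hcompl
      have : (P : Subgroup G) = ⊤ := Subgroup.isComplement'_bot_left.mp hcompl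
      exact hna (this ▸ hPab)
    · rw [h1] at hcompl
      have : (P : Subgroup G) = ⊥ := Subgroup.isComplement'_top_left.mp hcompl
      rw [this] at hxP
      exact hx1 (Subgroup.mem_bot.mp hxP)

end Cfsg.Agent.Lib.Helper66SNCent
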