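import Cfsg.Agent.Lib.Helper20SNDefs

set_option autoImplicit false

/-! Project 73, piece `quo`. -/

namespace Cfsg.Agent.Lib.Helper66SNQuo

open Cfsg.Agent.Lib.Helper20SNDefs

/-- Sylow subgroups of a `CA`-group are abelian. -/
theorem sylow_ab_of_CA {H : Type*} [Group H] [Finite H] (hCA : CA H) (p : ℕ) [Fact p.Prime]
    (P : Sylow p H) : Ab (P : Subgroup H) := by
  by_cases hb : (P : Subgroup H) = ⊥
  · intro a ha b hb'
    rw [hb] at ha hb'
    rw [Subgroup.mem_bot.mp ha, Subgroup.mem_bot.mp hb']
  · have _ : Nontrivial (P : Subgroup H) := (Subgroup.nontrivial_iff_ne_bot _).mpr hb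
    have hnt := IsPGroup.center_nontrivial P.2
    obtain ⟨z, hz⟩ := exists_ne (1 : Subgroup.center (P : Subgroup H))
    have hz1 : ((z : (P : Subgroup H)) : H) ≠ 1 := by
      intro h
      apply hz
      apply Subtype.ext
      apply Subtype.ext
      exact h
    intro a ha b hb'
    have hza := Subgroup.mem_center_iff.mp z.2 ⟨a, ha⟩
    have hzb := Subgroup.mem_center_iff.mp z.2 ⟨b, hb'⟩
    exact hCA _ hz1 a b (congrArg Subtype.val hza) (congrArg Subtype.val hzb)

/-- Burnside: in a non-abelian simple group a nontrivial abelian Sylow subgroup is not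
self-normalizing. -/
theorem exists_normalizer_not_mem {H : Type*} [Group H] [Finite H] [IsSimpleGroup H]
    (hna : ¬ Ab (⊤ : Subgroup H)) (p : ℕ) [Fact p.Prime] (P : Sylow p H)
    (hPab : Ab (P : Subgroup H)) (hb : (P : Subgroup H) ≠ ⊥) :
    ∃ g ∈ Subgroup.normalizer ((P : Subgroup H) : Set H), g ∉ (P : Subgroup H) := by
  by_contra hcon
  push Not at hcon
  have hNC : Subgroup.normalizer ((P : Subgroup H) : Set H) ≤
      Subgroup.centralizer ((P : Subgroup H) : Set H) := by
    intro g hg
    rw [Subgroup.mem_centralizer_iff]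
    intro h hh
    exact hPab h hh g (hcon g hg)
  have hcompl := MonoidHom.ker_transferSylow_isComplement' P hNC
  rcases (inferInstance : (MonoidHom.transferSylow P hNC).ker.Normal).eq_bot_or_eq_top with h1 | h1
  · rw [h1] at hcompl
    have : (P : Subgroup H) = ⊤ := Subgroup.isComplement'_bot_left.mp hcompl
    exact hna (this ▸ hPab)
  · rw [h1] at hcompl
    exact hb (Subgroup.isComplement'_top_left.mp hcompl)

theorem central_of_quot {G : Type*} [Group G] [Finite G] (hP : PP G) (M : Subgroup G) [M.Normal]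
    (hM : Ab M) (hsimple : IsSimpleGroup (G ⧸ M)) (hna : ¬ Ab (⊤ : Subgroup (G ⧸ M)))
    (hCA : CA (G ⧸ M)) :
    M ≤ Subgroup.center G ∧ ∀ (p : ℕ) [Fact p.Prime] (P : Sylow p G), Ab (P : Subgroup G) := by
  set π := QuotientGroup.mk' M with hπ
  have hker : ∀ g : G, π g = 1 ↔ g ∈ M := fun g => QuotientGroup.eq_one_iff g
  -- preimages of Sylow subgroups are abelian
  have key : ∀ (p : ℕ) [Fact p.Prime] (Q : Sylow p (G ⧸ M)),
      Ab ((Q : Subgroup (G ⧸ M)).comap π) := by
    intro p _ Q
    by_cases hb : (Q : Subgroup (G ⧸ M)) = ⊥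
    · rw [hb]
      intro a ha b hb'
      rw [Subgroup.mem_comap, Subgroup.mem_bot, hker] at ha hb'
      exact hM a ha b hb'
    · obtain ⟨g', hg', hgn⟩ := exists_normalizer_not_mem hna p Q (sylow_ab_of_CA hCA p Q) hb
      obtain ⟨g, rfl⟩ := QuotientGroup.mk'_surjective M g'
      refine hP.ab_of_not_mem (g := g) ?_ hgn
      intro h hh
      rw [Subgroup.mem_comap] at hh ⊢
      rw [map_mul, map_mul, map_inv]
      exact (Subgroup.mem_normalizer_iff.mp hg' _).1 hh
  have hMle : ∀ (p : ℕ) [Fact p.Prime] (Q : Sylow p (G ⧸ M)),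
      M ≤ (Q : Subgroup (G ⧸ M)).comap π := by
    intro p _ Q m hm
    rw [Subgroup.mem_comap, (hker m).2 hm]
    exact Subgroup.one_mem _
  refine ⟨?_, ?_⟩
  · set C := Subgroup.centralizer (M : Set G) with hC
    have hMC : M ≤ C := by
      intro m hm
      rw [hC, Subgroup.mem_centralizer_iff]
      intro h hh
      exact hM h hh m hm
    have hCn : (C.map π).Normal :=
      (inferInstance : C.Normal).map π (QuotientGroup.mk'_surjective M)
    rcases hCn.eq_bot_or_eq_top with h1 | h1
    · exfalso
      have hCM : C ≤ M := by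
        intro c hc
        rw [← hker]
        have : π c ∈ C.map π := Subgroup.mem_map_of_mem π hc
        rw [h1] at this
        exact Subgroup.mem_bot.mp this
      have hall : ∀ (p : ℕ) [Fact p.Prime] (Q : Sylow p (G ⧸ M)),
          (Q : Subgroup (G ⧸ M)) = ⊥ := by
        intro p _ Q
        rw [eq_bot_iff]
        intro x hx
        obtain ⟨g, rfl⟩ := QuotientGroup.mk'_surjective M x
        rw [Subgroup.mem_bot]
        change π g = 1
        rw [hker]
        apply hCM
        rw [hC, Subgroup.mem_centralizer_iff]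
        intro m hm
        exact key p Q m (hMle p Q hm) g hx
      have hcard : Nat.card (G ⧸ M) ≠ 1 := by
        intro h
        have := (Nat.card_eq_one_iff_unique.mp h).1
        apply hna
        intro a _ b _
        rw [Subsingleton.elim a b]
      obtain ⟨p, hp, hpd⟩ := Nat.exists_prime_and_dvd hcard
      have _ : Fact p.Prime := ⟨hp⟩
      obtain ⟨x, hx⟩ := exists_prime_orderOf_dvd_card' p hpd
      have hxP : IsPGroup p (Subgroup.zpowers x) := by
        apply IsPGroup.of_card (n := 1)
        rw [Nat.card_zpowers, hx, pow_one]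
      obtain ⟨Q, hQ⟩ := hxP.exists_le_sylow
      have hx1 : x ∈ (Q : Subgroup (G ⧸ M)) := hQ (Subgroup.mem_zpowers x)
      rw [hall p Q, Subgroup.mem_bot] at hx1
      rw [hx1, orderOf_one] at hx
      exact hp.one_lt.ne hx
    · intro m hm
      rw [Subgroup.mem_center_iff]
      intro g
      have hg : π g ∈ C.map π := h1 ▸ Subgroup.mem_top _
      obtain ⟨c, hc, hcg⟩ := hg
      have h2 : c⁻¹ * g ∈ M := by
        rw [← hker, map_mul, map_inv, hcg, inv_mul_cancel]
      have hgC : g ∈ C := by
        have := C.mul_mem hc (hMC h2)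
        rwa [mul_inv_cancel_left] at this
      rw [hC, Subgroup.mem_centralizer_iff] at hgC
      exact (hgC m hm).symm
  · intro p _ P
    have hmapP : IsPGroup p ((P : Subgroup G).map π) := P.2.map π
    obtain ⟨Q, hQ⟩ := hmapP.exists_le_sylow
    refine (key p Q).mono ?_
    intro g hg
    exact hQ (Subgroup.mem_map_of_mem π hg)

end Cfsg.Agent.Lib.Helper66SNQuo
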