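import Cfsg.Agent.Lib.Helper20SNDefs

set_option autoImplicit false

/-! Project 73, piece `tra`. -/

namespace Cfsg.Agent.Lib.Helper66SNTra

open Cfsg.Agent.Lib.Helper20SNDefs

open scoped IsMulCommutative in
theorem center_eq_bot_of_perfect {G : Type*} [Group G] [Finite G] (hperf : commutator G = ⊤)
    (hS : ∀ (p : ℕ) [Fact p.Prime] (P : Sylow p G), Ab (P : Subgroup G)) :
    Subgroup.center G = ⊥ := by
  rw [eq_bot_iff]
  intro z hzcen
  rw [Subgroup.mem_bot]
  by_contra hz1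
  have ho : orderOf z ≠ 1 := fun h => hz1 (orderOf_eq_one_iff.mp h)
  obtain ⟨r, hr, hrd⟩ := Nat.exists_prime_and_dvd ho
  have : Fact r.Prime := ⟨hr⟩
  obtain ⟨R⟩ : Nonempty (Sylow r G) := inferInstance
  have hcomm : IsMulCommutative R := (ab_iff _).1 (hS r R)
  have key : ∀ (k : ℕ) (g₀ : G), g₀⁻¹ * z ^ k * g₀ ∈ (R : Subgroup G) →
      g₀⁻¹ * z ^ k * g₀ = z ^ k := by
    intro k g₀ _
    have h1 : z ^ k ∈ Subgroup.center G := Subgroup.pow_mem _ hzcen k
    have h2 := Subgroup.mem_center_iff.mp h1 g₀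
    rw [mul_assoc, ← h2, inv_mul_cancel_left]
  have h1 := MonoidHom.transfer_eq_pow (MonoidHom.id (R : Subgroup G)) z key
  have h2 : MonoidHom.transfer (MonoidHom.id (R : Subgroup G)) z = 1 :=
    MonoidHom.mem_ker.mp (Abelianization.commutator_subset_ker _ (hperf ▸ Subgroup.mem_top z))
  rw [h2] at h1
  have h3 : z ^ (R : Subgroup G).index = 1 := by
    have := congrArg Subtype.val h1
    simpa using this.symm
  exact R.not_dvd_index (hrd.trans (orderOf_dvd_of_pow_eq_one h3))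

end Cfsg.Agent.Lib.Helper66SNTra
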