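import Mathlib
import Cfsg.Agent.Lib.Helper20SNDefs

/-!
Common API for the structure `Pre K A r y` (project 73, S4073).
-/

set_option autoImplicit false

namespace Cfsg.Agent.Lib.Helper97SNPre

open Cfsg.Agent.Lib.Helper20SNDefs

variable {G : Type*} [Group G] {K A : Subgroup G} {r : ℕ} {y : G}

theorem le_K (h : Pre K A r y) : A ≤ K := fun a ha => ((h.mem_A a).1 ha).1

theorem ab_A (h : Pre K A r y) : Ab A := h.ab.mono (le_K h)

theorem conj_mem_A (h : Pre K A r y) (g : G) {a : G} (ha : a ∈ A) : g * a * g⁻¹ ∈ A := by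
  rw [h.mem_A] at ha ⊢
  refine ⟨h.normal.conj_mem a ha.1 g, ?_⟩
  have : orderOf (g * a * g⁻¹) = orderOf a := by
    have := (MulAut.conj g).orderOf_eq a
    rwa [MulAut.conj_apply] at this
  rw [this]
  exact ha.2

theorem normal_A (h : Pre K A r y) : A.Normal := ⟨fun a ha g => conj_mem_A h g ha⟩

theorem eq_one_of_pow (h : Pre K A r y) {a : G} (ha : a ∈ A) {n : ℕ} (hn : a ^ (r ^ n) = 1) :
    a = 1 := by
  have h1 : orderOf a ∣ r ^ n := orderOf_dvd_of_pow_eq_one hn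
  have h2 : (orderOf a).Coprime (r ^ n) := Nat.Coprime.pow_right n ((h.mem_A a).1 ha).2
  have : orderOf a = 1 := Nat.Coprime.eq_one_of_dvd h2 h1
  exact orderOf_eq_one_iff.1 this

theorem decomp [Finite G] (h : Pre K A r y) (g : G) : ∃ k ∈ K, ∃ i : ℕ, g = k * y ^ i := by
  have := h.normal
  have : Fact r.Prime := ⟨h.prime⟩
  have hcard : Nat.card (G ⧸ K) = r := h.index
  have hy : (y : G ⧸ K) ≠ 1 := by
    rw [Ne, QuotientGroup.eq_one_iff]; exact h.not_mem
  have hg : (g : G ⧸ K) ∈ Submonoid.powers (y : G ⧸ K) := mem_powers_of_prime_card hcard hy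
  obtain ⟨i, hi⟩ := hg
  refine ⟨g * (y ^ i)⁻¹, ?_, i, by group⟩
  rw [← QuotientGroup.eq_one_iff]
  have hi' : (y : G ⧸ K) ^ i = (g : G ⧸ K) := hi
  rw [QuotientGroup.mk_mul, QuotientGroup.mk_inv, QuotientGroup.mk_pow, hi', mul_inv_cancel]

theorem pow_mem_A [Finite G] (h : Pre K A r y) (g : G) : ∃ n : ℕ, g ^ (r ^ n) ∈ A := by
  have := h.normal
  have hk : g ^ r ∈ K := by
    have := K.pow_index_mem g
    rwa [h.index] at this
  obtain ⟨j, m, hm, hjm⟩ := Nat.exists_eq_pow_mul_and_not_dvd (n := orderOf (g ^ r))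
    (orderOf_pos _).ne' r h.prime.ne_one
  refine ⟨j + 1, ?_⟩
  have e : g ^ (r ^ (j + 1)) = (g ^ r) ^ (r ^ j) := by
    rw [← pow_mul, pow_succ, mul_comm]
  rw [e, h.mem_A]
  refine ⟨K.pow_mem hk _, ?_⟩
  have hpos : r ^ j ≠ 0 := pow_ne_zero _ h.prime.ne_zero
  have : orderOf ((g ^ r) ^ (r ^ j)) = m := by
    rw [orderOf_pow_of_dvd hpos (by rw [hjm]; exact dvd_mul_right _ _), hjm]
    exact Nat.mul_div_cancel_left _ (Nat.pos_of_ne_zero hpos)
  rw [this]
  exact ((Nat.Prime.coprime_iff_not_dvd h.prime).2 hm).symm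

theorem isPGroup_quot [Finite G] (h : Pre K A r y) [A.Normal] : IsPGroup r (G ⧸ A) := by
  intro x
  obtain ⟨g, rfl⟩ := QuotientGroup.mk'_surjective A x
  obtain ⟨n, hn⟩ := pow_mem_A h g
  refine ⟨n, ?_⟩
  rw [← map_pow]
  exact (QuotientGroup.eq_one_iff _).2 hn

theorem index_A [Finite G] (h : Pre K A r y) : ∃ n : ℕ, A.index = r ^ n := by
  have := normal_A h
  have : Fact r.Prime := ⟨h.prime⟩
  exact (IsPGroup.iff_card).1 (isPGroup_quot h)

theorem coprime_card_A [Finite G] (h : Pre K A r y) : (Nat.card A).Coprime r := by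
  have : Fact r.Prime := ⟨h.prime⟩
  rw [Nat.coprime_comm, Nat.Prime.coprime_iff_not_dvd h.prime]
  intro hd
  obtain ⟨x, hx⟩ := exists_prime_orderOf_dvd_card' r hd
  have h1 : orderOf (x : G) = r := by rw [Subgroup.orderOf_coe]; exact hx
  have h2 := ((h.mem_A x).1 x.2).2
  rw [h1, Nat.coprime_self] at h2
  exact h.prime.ne_one h2

/-- powers of `y` lying in `A` are trivial. -/
theorem zpow_eq_one (h : Pre K A r y) {i : ℤ} (hi : y ^ i ∈ A) : y ^ i = 1 := by
  obtain ⟨k, hk⟩ := h.ord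
  apply eq_one_of_pow h hi (n := k)
  rw [← zpow_natCast, ← zpow_mul, mul_comm, zpow_mul, zpow_natCast, ← hk, pow_orderOf_eq_one, one_zpow]

end Cfsg.Agent.Lib.Helper97SNPre
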