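import Mathlib
import Cfsg.Agent.Lib.Helper20SNDefs
import Cfsg.Agent.Lib.Helper97SNPre

/-!
Project 73 (S4073), piece `fpf`.
-/

set_option autoImplicit false

namespace Cfsg.Agent.Lib.Helper97SNFpf

open Cfsg.Agent.Lib.Helper20SNDefs Cfsg.Agent.Lib.Helper97SNPre

/-- piece `fpf` -/
theorem fpf_of_not_cent {G : Type*} [Group G] [Finite G] (hP : PP G)
    {K A : Subgroup G} {r : ℕ} {y : G} (h : Pre K A r y) (hc : ¬ ∀ a ∈ A, a * y = y * a) :
    ∀ a ∈ A, a * y = y * a → a = 1 := by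
  have hN := normal_A h
  have hab := ab_A h
  let φ : A →* A := MonoidHom.mk'
    (fun a => ⟨(a : G)⁻¹ * (y * a * y⁻¹), A.mul_mem (A.inv_mem a.2) (conj_mem_A h y a.2)⟩) (by
      intro a b
      apply Subtype.ext
      simp only [Subgroup.coe_mul]
      have e1 : (y * a * y⁻¹) * (b : G)⁻¹ = (b : G)⁻¹ * (y * a * y⁻¹) :=
        hab _ (conj_mem_A h y a.2) _ (A.inv_mem b.2)
      have e2 : (a : G)⁻¹ * (b : G)⁻¹ = (b : G)⁻¹ * (a : G)⁻¹ :=
        hab _ (A.inv_mem a.2) _ (A.inv_mem b.2)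
      calc ((a : G) * b)⁻¹ * (y * (a * b) * y⁻¹)
          = ((b : G)⁻¹ * (a : G)⁻¹) * (y * a * y⁻¹) * (y * b * y⁻¹) := by group
        _ = (a : G)⁻¹ * ((b : G)⁻¹ * (y * a * y⁻¹)) * (y * b * y⁻¹) := by rw [← e2]; group
        _ = (a : G)⁻¹ * (y * a * y⁻¹) * ((b : G)⁻¹ * (y * b * y⁻¹)) := by rw [← e1]; group)
  have hφ : ∀ a : A, ((φ a : A) : G) = (a : G)⁻¹ * (y * a * y⁻¹) := fun a => rfl
  let B : Subgroup G := φ.range.map A.subtype
  have hB : ∀ b, b ∈ B ↔ ∃ a ∈ A, b = a⁻¹ * (y * a * y⁻¹) := by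
    intro b
    constructor
    · rintro ⟨_, ⟨a, rfl⟩, rfl⟩
      exact ⟨a, a.2, rfl⟩
    · rintro ⟨a, ha, rfl⟩
      exact ⟨φ ⟨a, ha⟩, ⟨⟨a, ha⟩, rfl⟩, rfl⟩
  have hBA : B ≤ A := by
    rintro _ ⟨x, _, rfl⟩
    exact x.2
  have hyB : ∀ b ∈ B, y * b * y⁻¹ ∈ B := by
    intro b hb
    obtain ⟨a, ha, rfl⟩ := (hB b).1 hb
    exact (hB _).2 ⟨y * a * y⁻¹, conj_mem_A h y ha, by group⟩
  have hyiB : ∀ i : ℕ, ∀ b ∈ B, y ^ i * b * (y ^ i)⁻¹ ∈ B := by
    intro i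
    induction i with
    | zero => intro b hb; simpa using hb
    | succ i ih =>
      intro b hb
      have e : y ^ (i + 1) * b * (y ^ (i + 1))⁻¹ = y * (y ^ i * b * (y ^ i)⁻¹) * y⁻¹ := by
        rw [pow_succ']; group
      rw [e]
      exact hyB _ (ih b hb)
  have hBN : B.Normal := by
    refine ⟨fun b hb g => ?_⟩
    obtain ⟨k, hk, i, rfl⟩ := decomp h g
    have h1 := hyiB i b hb
    have h2 : k * (y ^ i * b * (y ^ i)⁻¹) = (y ^ i * b * (y ^ i)⁻¹) * k :=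
      h.ab k hk _ (le_K h (hBA h1))
    have e : k * y ^ i * b * (k * y ^ i)⁻¹ = (k * (y ^ i * b * (y ^ i)⁻¹)) * k⁻¹ := by group
    rw [e, h2, mul_inv_cancel_right]
    exact h1
  set L := B ⊔ Subgroup.zpowers y with hL
  have hmemL : ∀ g, g ∈ L ↔ ∃ b ∈ B, ∃ i : ℤ, g = b * y ^ i := by
    intro g
    rw [hL, ← SetLike.mem_coe, Subgroup.normal_mul, Set.mem_mul]
    constructor
    · rintro ⟨a, ha, z, hz, rfl⟩
      obtain ⟨i, rfl⟩ := Subgroup.mem_zpowers_iff.1 hz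
      exact ⟨a, ha, i, rfl⟩
    · rintro ⟨a, ha, i, rfl⟩
      exact ⟨a, ha, y ^ i, Subgroup.zpow_mem_zpowers y i, rfl⟩
  have hBL : B ≤ L := le_sup_left
  have hyL : y ∈ L := (le_sup_right : Subgroup.zpowers y ≤ L) (Subgroup.mem_zpowers y)
  have hLna : ¬ Ab L := by
    intro habL
    apply hc
    intro a ha
    have hdB : a⁻¹ * (y * a * y⁻¹) ∈ B := (hB _).2 ⟨a, ha, rfl⟩
    set d := a⁻¹ * (y * a * y⁻¹) with hd
    have hdy : d * y = y * d := habL d (hBL hdB) y hyL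
    have hya : y * a * y⁻¹ = a * d := by rw [hd]; group
    have key : ∀ m : ℕ, y ^ m * a * (y ^ m)⁻¹ = a * d ^ m := by
      intro m
      induction m with
      | zero => simp
      | succ m ih =>
        have hdm : d ^ m * y = y * d ^ m := (Commute.pow_left (show Commute d y from hdy) m)
        calc y ^ (m + 1) * a * (y ^ (m + 1))⁻¹ = y * (y ^ m * a * (y ^ m)⁻¹) * y⁻¹ := by
              rw [pow_succ']; group
          _ = (y * a * y⁻¹) * (y * d ^ m) * y⁻¹ := by rw [ih]; group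
          _ = a * d * (d ^ m * y) * y⁻¹ := by rw [hya, hdm]
          _ = a * d ^ (m + 1) := by rw [pow_succ']; group
    obtain ⟨k, hk⟩ := h.ord
    have h1 := key (orderOf y)
    rw [pow_orderOf_eq_one, hk] at h1
    have h2 : d ^ (r ^ k) = 1 := by
      have : a * d ^ (r ^ k) = a * 1 := by rw [← h1]; group
      exact mul_left_cancel this
    have h3 : d = 1 := eq_one_of_pow h (hBA hdB) h2
    rw [h3, mul_one] at hya
    calc a * y = (y * a * y⁻¹) * y := by rw [hya]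
      _ = y * a := by group
  have hAL : A ≤ L := by
    intro a ha
    apply hP.mem hLna
    intro x hx
    obtain ⟨b, hb, i, rfl⟩ := (hmemL x).1 hx
    have e : a * (b * y ^ i) * a⁻¹ = (a * b * a⁻¹) * (a * y * a⁻¹) ^ i := by
      rw [conj_zpow]; group
    rw [e]
    refine L.mul_mem (hBL (hBN.conj_mem b hb a)) (L.zpow_mem ?_ i)
    have e2 : a * y * a⁻¹ = ((a⁻¹)⁻¹ * (y * a⁻¹ * y⁻¹)) * y := by group
    rw [e2]
    exact L.mul_mem (hBL ((hB _).2 ⟨a⁻¹, A.inv_mem ha, rfl⟩)) hyL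
  have hAB : A ≤ B := by
    intro a ha
    obtain ⟨b, hb, i, hbi⟩ := (hmemL a).1 (hAL ha)
    have h1 : y ^ i ∈ A := by
      have : y ^ i = b⁻¹ * a := by rw [hbi]; group
      rw [this]
      exact A.mul_mem (A.inv_mem (hBA hb)) ha
    rw [zpow_eq_one h h1, mul_one] at hbi
    rw [hbi]; exact hb
  have hsurj : Function.Surjective φ := by
    intro a
    obtain ⟨a', ha', e⟩ := (hB _).1 (hAB a.2)
    exact ⟨⟨a', ha'⟩, Subtype.ext (by rw [hφ, e])⟩
  have hinj : Function.Injective φ := Finite.injective_iff_surjective.2 hsurj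
  intro a ha hay
  have h1 : φ ⟨a, ha⟩ = φ 1 := by
    rw [map_one]
    apply Subtype.ext
    rw [hφ]
    simp only [Subgroup.coe_one]
    rw [← hay]; group
  exact congrArg Subtype.val (hinj h1)

end Cfsg.Agent.Lib.Helper97SNFpf
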