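import Mathlib
import Cfsg.Agent.Lib.Helper20SNDefs
import Cfsg.Agent.Lib.Helper97SNPre

/-!
Project 73 (S4073), piece `gen`.
-/

set_option autoImplicit false

namespace Cfsg.Agent.Lib.Helper97SNGen

open Cfsg.Agent.Lib.Helper20SNDefs Cfsg.Agent.Lib.Helper97SNPre

/-- piece `gen` -/
theorem gen_of_fpf {G : Type*} [Group G] [Finite G] (hP : PP G)
    {K A : Subgroup G} {r : ℕ} {y : G} (h : Pre K A r y) (hA : A ≠ ⊥)
    (hf : ∀ a ∈ A, a * y = y * a → a = 1) :
    ∀ g : G, ∃ a ∈ A, ∃ i : ℕ, g = a * y ^ i := by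
  have hN := normal_A h
  have : Fact r.Prime := ⟨h.prime⟩
  set L := A ⊔ Subgroup.zpowers y with hL
  have hmemL : ∀ g, g ∈ L ↔ ∃ a ∈ A, ∃ i : ℤ, g = a * y ^ i := by
    intro g
    rw [hL, ← SetLike.mem_coe, Subgroup.normal_mul, Set.mem_mul]
    constructor
    · rintro ⟨a, ha, z, hz, rfl⟩
      obtain ⟨i, rfl⟩ := Subgroup.mem_zpowers_iff.1 hz
      exact ⟨a, ha, i, rfl⟩
    · rintro ⟨a, ha, i, rfl⟩
      exact ⟨a, ha, y ^ i, Subgroup.zpow_mem_zpowers y i, rfl⟩
  have hAL : A ≤ L := le_sup_left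
  have hyL : Subgroup.zpowers y ≤ L := le_sup_right
  have hLna : ¬ Ab L := by
    intro hab
    obtain ⟨a, ha, ha1⟩ : ∃ a ∈ A, a ≠ 1 := by
      by_contra hcon
      push Not at hcon
      exact hA ((Subgroup.eq_bot_iff_forall _).2 hcon)
    exact ha1 (hf a ha (hab a (hAL ha) y (hyL (Subgroup.mem_zpowers y))))
  have hyp : IsPGroup r (Subgroup.zpowers y) := by
    obtain ⟨k, hk⟩ := h.ord
    exact IsPGroup.of_card (n := k) (by rw [Nat.card_zpowers, hk])
  obtain ⟨R, hR⟩ := hyp.exists_le_sylow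
  have hRy : (R : Subgroup G) ≤ Subgroup.zpowers y := by
    by_contra hcon
    have hnil : Group.IsNilpotent R := R.isPGroup'.isNilpotent
    have hnc := Group.normalizerCondition_of_isNilpotent (G := R)
    have hlt : (Subgroup.zpowers y).subgroupOf R < ⊤ := by
      rw [lt_top_iff_ne_top, Ne, Subgroup.subgroupOf_eq_top]
      exact hcon
    obtain ⟨w, hw, hw'⟩ := SetLike.exists_of_lt (hnc _ hlt)
    have hyR : y ∈ (R : Subgroup G) := hR (Subgroup.mem_zpowers y)
    have h1 : (w : G) * y * (w : G)⁻¹ ∈ Subgroup.zpowers y := by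
      have := (Subgroup.mem_normalizer_iff.1 hw ⟨y, hyR⟩).1
        (by rw [Subgroup.mem_subgroupOf]; exact Subgroup.mem_zpowers y)
      rw [Subgroup.mem_subgroupOf] at this
      simpa using this
    have h2 : (w : G) ∈ L := by
      apply hP.mem hLna
      intro x hx
      obtain ⟨a, ha, i, rfl⟩ := (hmemL x).1 hx
      have e : (w : G) * (a * y ^ i) * (w : G)⁻¹
          = ((w : G) * a * (w : G)⁻¹) * ((w : G) * y * (w : G)⁻¹) ^ i := by
        rw [conj_zpow]; group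
      rw [e]
      exact L.mul_mem (hAL (conj_mem_A h _ ha)) (L.zpow_mem (hyL h1) i)
    obtain ⟨a, ha, i, hwa⟩ := (hmemL _).1 h2
    have h3 : a ∈ (R : Subgroup G) := by
      have : a = (w : G) * (y ^ i)⁻¹ := by rw [hwa]; group
      rw [this]
      exact (R : Subgroup G).mul_mem w.2 ((R : Subgroup G).inv_mem ((R : Subgroup G).zpow_mem hyR i))
    obtain ⟨m, hm⟩ := R.isPGroup' ⟨a, h3⟩
    have h4 : a = 1 := eq_one_of_pow h ha (n := m) (by simpa using congrArg Subtype.val hm)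
    apply hw'
    rw [Subgroup.mem_subgroupOf, hwa, h4, one_mul]
    exact Subgroup.zpow_mem_zpowers y i
  have hLtop : L = ⊤ := by
    rw [← Subgroup.index_eq_one]
    obtain ⟨n, hn⟩ := index_A h
    have h1 : L.index ∣ r ^ n := hn ▸ Subgroup.index_dvd_of_le hAL
    have h2 : L.index ∣ (R : Subgroup G).index := Subgroup.index_dvd_of_le (hRy.trans hyL)
    obtain ⟨j, _, hj'⟩ := (Nat.dvd_prime_pow h.prime).1 h1
    rcases Nat.eq_zero_or_pos j with rfl | hjpos
    · simpa using hj'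
    · exfalso
      apply R.not_dvd_index
      exact dvd_trans (hj' ▸ dvd_pow_self r hjpos.ne') h2
  intro g
  obtain ⟨a, ha, i, rfl⟩ := (hmemL g).1 (hLtop ▸ Subgroup.mem_top g)
  obtain ⟨j, hj⟩ := mem_powers_iff_mem_zpowers.2 (Subgroup.zpow_mem_zpowers y i)
  exact ⟨a, ha, j, by rw [← hj]⟩

end Cfsg.Agent.Lib.Helper97SNGen
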