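import Mathlib
import Cfsg.Agent.Lib.Helper20SNDefs
import Cfsg.Agent.Lib.Helper97SNPre

/-!
Project 73 (S4073), piece `pgrp`.
-/

set_option autoImplicit false

namespace Cfsg.Agent.Lib.Helper97SNPgrp

open Cfsg.Agent.Lib.Helper20SNDefs Cfsg.Agent.Lib.Helper97SNPre

/-- piece `pgrp` -/
theorem pgroup_of_cent {G : Type*} [Group G] [Finite G] (hP : PP G) (hna : ¬ Ab (⊤ : Subgroup G))
    {K A : Subgroup G} {r : ℕ} {y : G} (h : Pre K A r y) (hc : ∀ a ∈ A, a * y = y * a) :
    IsPGroup r G := by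
  have hN := normal_A h
  -- `A` is central
  have hcen : ∀ a ∈ A, ∀ g : G, a * g = g * a := by
    intro a ha g
    obtain ⟨k, hk, i, rfl⟩ := decomp h g
    have h1 : a * k = k * a := h.ab a (le_K h ha) k hk
    have h2 : a * y ^ i = y ^ i * a := Commute.pow_right (hc a ha) i
    calc a * (k * y ^ i) = (a * k) * y ^ i := by group
      _ = k * (a * y ^ i) := by rw [h1]; group
      _ = k * y ^ i * a := by rw [h2]; group
  obtain ⟨n, hn⟩ := index_A h
  have hcop : (Nat.card A).Coprime A.index := by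
    rw [hn]; exact Nat.Coprime.pow_right n (coprime_card_A h)
  obtain ⟨R, hR⟩ := Subgroup.exists_right_complement'_of_coprime hcop
  have hdec : ∀ g : G, ∃ a ∈ A, ∃ x ∈ R, g = a * x := by
    intro g
    obtain ⟨⟨a, x⟩, hax⟩ := hR.2 g
    exact ⟨a, a.2, x, x.2, hax.symm⟩
  have hRna : ¬ Ab R := by
    intro hRab
    apply hna
    intro g _ g' _
    obtain ⟨a, ha, x, hx, rfl⟩ := hdec g
    obtain ⟨a', ha', x', hx', rfl⟩ := hdec g'
    have e1 := hcen a' ha' x
    have e2 := hcen a ha x'
    have e3 := hcen a ha a'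
    have e4 := hRab x hx x' hx'
    calc a * x * (a' * x') = a * (x * a') * x' := by group
      _ = a * (a' * x) * x' := by rw [e1]
      _ = (a * a') * (x * x') := by group
      _ = (a' * a) * (x' * x) := by rw [e3, e4]
      _ = a' * (a * x') * x := by group
      _ = a' * (x' * a) * x := by rw [e2]
      _ = a' * x' * (a * x) := by group
  have hAR : A ≤ R := fun a ha => hP.mem hRna (fun x hx => by
    rw [hcen a ha x]; simpa using hx)
  have hAbot : ∀ a ∈ A, a = 1 := by
    intro a ha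
    exact (Subgroup.disjoint_def.1 hR.disjoint) ha (hAR ha)
  intro g
  obtain ⟨m, hm⟩ := pow_mem_A h g
  exact ⟨m, hAbot _ hm⟩

end Cfsg.Agent.Lib.Helper97SNPgrp
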