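import Mathlib
import Cfsg.Agent.Lib.Helper20SNDefs
import Cfsg.Agent.Lib.Helper20SNT
import Cfsg.Agent.Lib.Helper1SNPre
import Cfsg.Agent.Lib.Helper1SNTop
import Cfsg.Agent.Lib.Helper1SNAmb
import Cfsg.Agent.Lib.Helper1SNSyl
import Cfsg.Agent.Lib.Helper1SNMaxn
import Cfsg.Agent.Lib.Helper97SNPgrp
import Cfsg.Agent.Lib.Helper97SNFpf
import Cfsg.Agent.Lib.Helper97SNGen
import Cfsg.Agent.Lib.Helper66SNCent
import Cfsg.Agent.Lib.Helper66SNQuo
import Cfsg.Agent.Lib.Helper66SNTra

/-!
Project 73 (S4073), hub A: a non-solvable finite group in which every non-abelian subgroup is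
self-normalizing is simple and all its centralizers of non-identity elements are abelian.
-/

set_option autoImplicit false

namespace Cfsg.Agent.Lib.Helper20SNHubA

open Cfsg.Agent.Lib.Helper20SNDefs

theorem solv_struct_top {G : Type*} [Group G] [Finite G] [Group.IsSolvable G] (hP : PP G)
    (hna : ¬ Ab (⊤ : Subgroup G)) :
    (∃ p : ℕ, p.Prime ∧ IsPGroup p G) ∨ ∃ (A : Subgroup G) (r : ℕ) (y : G), TypeII ⊤ A r y :=
  Cfsg.Agent.Lib.Helper1SNTop.solv_struct_top hP hna
    (Cfsg.Agent.Lib.Helper1SNPre.exists_pre hP hna)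
    (fun h hc => Cfsg.Agent.Lib.Helper97SNPgrp.pgroup_of_cent hP hna h hc)
    (fun h hc => Cfsg.Agent.Lib.Helper97SNFpf.fpf_of_not_cent hP h hc)
    (fun h hA hf => Cfsg.Agent.Lib.Helper97SNGen.gen_of_fpf hP h hA hf)

theorem solv_struct {G : Type*} [Group G] [Finite G] (hP : PP G) (L : Subgroup G)
    (hs : Group.IsSolvable L) (hna : ¬ Ab L) :
    (∃ p : ℕ, p.Prime ∧ IsPGroup p L) ∨ ∃ (A : Subgroup G) (r : ℕ) (y : G), TypeII L A r y :=
  Cfsg.Agent.Lib.Helper1SNAmb.solv_struct hP L hs hna (fun h1 h2 => solv_struct_top h1 h2)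

theorem sylow_ab {G : Type*} [Group G] [Finite G] [IsSimpleGroup G] (hP : PP G)
    (hna : ¬ Ab (⊤ : Subgroup G))
    (hIH : ∀ L : Subgroup G, L ≠ ⊤ → ¬ Group.IsSolvable L → IsSimpleGroup L)
    (p : ℕ) [Fact p.Prime] (P : Sylow p G) : Ab (P : Subgroup G) :=
  Cfsg.Agent.Lib.Helper1SNSyl.sylow_ab hP hna hIH p P (fun L hs hn => solv_struct hP L hs hn)
    (fun h _ hu hc => Cfsg.Agent.Lib.Helper20SNT.TypeII.mem_of_coprime h hu hc)
    (fun h hn _ hQL hQ hnorm => Cfsg.Agent.Lib.Helper20SNT.TypeII.central_of_normal h hn hQL hQ hnorm)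

theorem cent_ab {G : Type*} [Group G] [Finite G] [IsSimpleGroup G] (hP : PP G)
    (hna : ¬ Ab (⊤ : Subgroup G))
    (hIH : ∀ L : Subgroup G, L ≠ ⊤ → ¬ Group.IsSolvable L → IsSimpleGroup L)
    (hS : ∀ (p : ℕ) [Fact p.Prime] (P : Sylow p G), Ab (P : Subgroup G)) : CA G :=
  Cfsg.Agent.Lib.Helper66SNCent.cent_ab hP hna hIH hS (fun L hs hn => solv_struct hP L hs hn)
    (fun h _ hRL hR hy => Cfsg.Agent.Lib.Helper20SNT.TypeII.le_zpowers h hRL hR hy)
    (fun h _ hg hgy => Cfsg.Agent.Lib.Helper20SNT.TypeII.normalizer_zpowers h hg hgy)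
    (fun h _ hx hc => Cfsg.Agent.Lib.Helper20SNT.TypeII.center_le h hx hc)

theorem solvable_of_ab {G : Type*} [Group G] (h : Ab (⊤ : Subgroup G)) : Group.IsSolvable G :=
  Group.isSolvable_of_comm (fun a b => h a trivial b trivial)

theorem solvable_sub_of_ab {G : Type*} [Group G] {H : Subgroup G} (h : Ab H) : Group.IsSolvable H :=
  Group.isSolvable_of_comm (fun a b => Subtype.ext (h a a.2 b b.2))

theorem simple_of_nonsolv {G : Type*} [Group G] [Finite G] (hP : PP G) (hns : ¬ Group.IsSolvable G)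
    (hIH : ∀ (M : Subgroup G) [M.Normal], M ≠ ⊥ → ¬ Group.IsSolvable (G ⧸ M) → CA (G ⧸ M)) :
    IsSimpleGroup G := by
  have hnt : Nontrivial G := by
    by_contra h
    rw [not_nontrivial_iff_subsingleton] at h
    exact hns inferInstance
  obtain ⟨M, hMn, hMs⟩ := Cfsg.Agent.Lib.Helper1SNMaxn.exists_max_normal (G := G)
  have hMtop : M ≠ ⊤ := by
    intro h
    have : Subsingleton (G ⧸ M) := by
      rw [h]; exact QuotientGroup.subsingleton_quotient_top
    exact not_subsingleton (G ⧸ M) this
  have hMab : Ab M := hP.normal_ab hMn hMtop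
  have hMsolv : Group.IsSolvable M := solvable_sub_of_ab hMab
  have hqns : ¬ Group.IsSolvable (G ⧸ M) := by
    intro h
    apply hns
    exact Group.isSolvable_of_ker_le_range M.subtype (QuotientGroup.mk' M) (by
      rw [QuotientGroup.ker_mk', Subgroup.range_subtype])
  by_cases hMbot : M = ⊥
  · subst hMbot
    exact (QuotientGroup.quotientBot (G := G)).symm.isSimpleGroup
  · exfalso
    have hCA := hIH M hMbot hqns
    have hqna : ¬ Ab (⊤ : Subgroup (G ⧸ M)) := fun h => hqns (solvable_of_ab h)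
    obtain ⟨hcen, hS⟩ := Cfsg.Agent.Lib.Helper66SNQuo.central_of_quot hP M hMab hMs hqna hCA
    have hperf : commutator G = ⊤ := by
      by_contra h
      have hab : Ab (commutator G) := hP.normal_ab inferInstance h
      apply hns
      have h1 : Group.IsSolvable (commutator G) := solvable_sub_of_ab hab
      have h2 : Group.IsSolvable (G ⧸ commutator G) :=
        (inferInstance : Group.IsSolvable (Abelianization G))
      exact Group.isSolvable_of_ker_le_range (commutator G).subtype
        (QuotientGroup.mk' (commutator G)) (by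
        rw [QuotientGroup.ker_mk', Subgroup.range_subtype])
    have := Cfsg.Agent.Lib.Helper66SNTra.center_eq_bot_of_perfect hperf hS
    exact hMbot (eq_bot_iff.2 (this ▸ hcen))

theorem simple_and_CA_aux (n : ℕ) : ∀ (G : Type*) [Group G] [Finite G], Nat.card G = n → PP G →
    ¬ Group.IsSolvable G → IsSimpleGroup G ∧ CA G := by
  induction n using Nat.strong_induction_on with
  | _ n ih =>
    intro G _ _ hn hP hns
    have hsimple : IsSimpleGroup G := by
      apply simple_of_nonsolv hP hns
      intro M _ hM hq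
      have hlt : Nat.card (G ⧸ M) < n := by
        rw [← hn, ← Subgroup.index_eq_card, ← M.card_mul_index]
        have h1 : 1 < Nat.card M := by
          rw [Finite.one_lt_card_iff_nontrivial]
          exact (Subgroup.nontrivial_iff_ne_bot M).2 hM
        have h2 : 0 < M.index := Nat.pos_of_ne_zero M.index_ne_zero_of_finite
        nlinarith
      exact (ih _ hlt (G ⧸ M) rfl (hP.quotient M) hq).2
    refine ⟨hsimple, ?_⟩
    have hna : ¬ Ab (⊤ : Subgroup G) := fun h => hns (solvable_of_ab h)
    have hIH : ∀ L : Subgroup G, L ≠ ⊤ → ¬ Group.IsSolvable L → IsSimpleGroup L := by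
      intro L hL hLs
      have hlt : Nat.card L < n := by
        rw [← hn]
        by_contra h
        exact hL (Subgroup.eq_top_of_le_card L (not_lt.1 h))
      exact (ih _ hlt L rfl (hP.subgroup L) hLs).1
    exact cent_ab hP hna hIH (fun p _ P => sylow_ab hP hna hIH p P)

/-- a non-solvable finite group in which every non-abelian subgroup is self-normalizing is simple, and
the centralizer of every non-identity element is abelian. -/
theorem simple_and_CA {G : Type*} [Group G] [Finite G] (hP : PP G) (hns : ¬ Group.IsSolvable G) :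
    IsSimpleGroup G ∧ CA G := simple_and_CA_aux _ G rfl hP hns

end Cfsg.Agent.Lib.Helper20SNHubA
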