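import Mathlib
import Cfsg.Agent.Lib.Helper41Conj

set_option autoImplicit false

namespace Cfsg.Agent.Lib.Helper21Cls

variable {G : Type*} [Group G] [Finite G] {p : ℕ} [Fact p.Prime]

/-- If `N_G(P) = C_G(P)` for a Sylow `p`-subgroup `P`, the classes of `G` of size prime to `p`
are in bijection with the classes of `N_G(P)`. -/
theorem card_classes_not_dvd (P : Sylow p G)
    (hNC : Subgroup.normalizer ((P : Subgroup G) : Set G)
      ≤ Subgroup.centralizer ((P : Subgroup G) : Set G)) :
    Nat.card {K : ConjClasses G // ¬ p ∣ Nat.card K.carrier}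
      = Nat.card (ConjClasses (Subgroup.normalizer ((P : Subgroup G) : Set G))) := by
  symm
  have hwell : ∀ c : Subgroup.normalizer ((P : Subgroup G) : Set G),
      ¬ p ∣ Nat.card (ConjClasses.mk (c : G)).carrier := by
    intro c
    rw [Cfsg.Agent.Lib.Helper41Conj.card_carrier_eq_index]
    intro hd
    apply P.not_dvd_index
    refine hd.trans (Subgroup.index_dvd_of_le ?_)
    intro x hx
    rw [Subgroup.mem_centralizer_singleton_iff]
    exact (Subgroup.mem_centralizer_iff.1 (hNC c.2)) x hx
  let f : ConjClasses (Subgroup.normalizer ((P : Subgroup G) : Set G)) →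
      {K : ConjClasses G // ¬ p ∣ Nat.card K.carrier} := fun K =>
    ⟨ConjClasses.map (Subgroup.normalizer ((P : Subgroup G) : Set G)).subtype K, by
      obtain ⟨c, rfl⟩ := ConjClasses.mk_surjective K
      exact hwell c⟩
  apply Nat.card_congr
  refine Equiv.ofBijective f ⟨?_, ?_⟩
  · intro K K' hKK
    obtain ⟨c, rfl⟩ := ConjClasses.mk_surjective K
    obtain ⟨c', rfl⟩ := ConjClasses.mk_surjective K'
    have h1 : ConjClasses.mk (c : G) = ConjClasses.mk (c' : G) := congrArg Subtype.val hKK
    rw [ConjClasses.mk_eq_mk_iff_isConj, isConj_iff] at h1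
    obtain ⟨g, hg⟩ := h1
    have h2 := P.conj_eq_normalizer_conj_of_mem_centralizer (c : G) g⁻¹ (hNC c.2)
      (by rw [inv_inv, hg]; exact hNC c'.2)
    obtain ⟨n, hn, hn'⟩ := h2
    rw [inv_inv, hg] at hn'
    rw [ConjClasses.mk_eq_mk_iff_isConj, isConj_iff]
    refine ⟨⟨n, hn⟩⁻¹, ?_⟩
    apply Subtype.ext
    simp [hn']
  · rintro ⟨K, hK⟩
    obtain ⟨g, rfl⟩ := ConjClasses.mk_surjective K
    rw [Cfsg.Agent.Lib.Helper41Conj.card_carrier_eq_index] at hK
    -- the centralizer of g contains a Sylow subgroup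
    obtain ⟨Q, hQ⟩ : ∃ Q : Sylow p G, (Q : Subgroup G) ≤ Subgroup.centralizer {g} := by
      obtain ⟨Q0⟩ : Nonempty (Sylow p (Subgroup.centralizer ({g} : Set G))) := inferInstance
      have hcard : Nat.card ((Q0 : Subgroup (Subgroup.centralizer ({g} : Set G))).map
          (Subgroup.centralizer ({g} : Set G)).subtype)
          = p ^ (Nat.card G).factorization p := by
        rw [Subgroup.card_map_of_injective (Subgroup.subtype_injective _),
          Q0.card_eq_multiplicity]
        congr 1
        have h1 := Subgroup.card_mul_index (Subgroup.centralizer ({g} : Set G))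
        rw [← h1, Nat.factorization_mul Nat.card_pos.ne'
          (Subgroup.index_ne_zero_of_finite)]
        simp [Nat.factorization_eq_zero_of_not_dvd hK]
      exact ⟨Sylow.ofCard _ hcard, by
        rw [Sylow.coe_ofCard]
        exact Subgroup.map_subtype_le _⟩
    obtain ⟨x, hx⟩ := MulAction.exists_smul_eq G Q P
    have hmem : x * g * x⁻¹ ∈ Subgroup.centralizer ((P : Subgroup G) : Set G) := by
      rw [Subgroup.mem_centralizer_iff]
      intro y hy
      have hy' : y ∈ ((x • Q : Sylow p G) : Subgroup G) := by rw [hx]; exact hy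
      rw [Sylow.coe_subgroup_smul, Subgroup.mem_pointwise_smul_iff_inv_smul_mem] at hy'
      have h3 := Subgroup.mem_centralizer_singleton_iff.1 (hQ hy')
      simp only [MulAut.smul_def] at h3
      have : x⁻¹ * y * x * g = g * (x⁻¹ * y * x) := h3
      calc y * (x * g * x⁻¹) = x * (x⁻¹ * y * x * g) * x⁻¹ := by group
        _ = x * (g * (x⁻¹ * y * x)) * x⁻¹ := by rw [this]
        _ = x * g * x⁻¹ * y := by group
    refine ⟨ConjClasses.mk ⟨x * g * x⁻¹, Subgroup.centralizer_le_normalizer _ hmem⟩, ?_⟩
    apply Subtype.ext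
    show ConjClasses.mk (x * g * x⁻¹) = ConjClasses.mk g
    rw [ConjClasses.mk_eq_mk_iff_isConj, isConj_comm, isConj_iff]
    exact ⟨x, rfl⟩

end Cfsg.Agent.Lib.Helper21Cls
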