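import Mathlib
import Cfsg.Agent.Lib.Helper44ODefs
import Cfsg.Agent.Lib.Helper4Char3

set_option autoImplicit false

namespace Cfsg.Agent.Lib.Helper21Ointdvd

open Matrix Cfsg

theorem int_dvd {G : Type*} [Group G] [Finite G] (χ : G → ℂ) (hχ : IsIrrCharacter G χ) (t : G)
    (D e T : ℕ) (hD : χ 1 = D) (ht : χ t = (D : ℂ) - e)
    (hT : (Subgroup.centralizer ({t} : Set G)).index = T) : D ∣ T * e := by
  obtain ⟨n, ρ, hρ, rfl⟩ := hχ
  have h1 := Cfsg.Agent.Lib.Helper4Char3.isIntegral_centralChar ρ t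
  have hdeg : (Module.finrank ℂ (Fin n → ℂ) : ℂ) = D := by
    rw [← hD, Representation.char_one]
  rw [hdeg, hT, ht] at h1
  have hD0 : D ≠ 0 := by
    rintro rfl
    have h2 : (Module.finrank ℂ (Fin n → ℂ) : ℂ) = 0 := by rw [hdeg]; simp
    have h3 : Module.finrank ℂ (Fin n → ℂ) = 0 := by exact_mod_cast h2
    have := Cfsg.Agent.Lib.Helper4Char.nontrivial_of_irreducible ρ
    exact (Module.finrank_pos (R := ℂ) (M := Fin n → ℂ)).ne' h3
  have hD0' : (D : ℂ) ≠ 0 := by exact_mod_cast hD0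
  apply Cfsg.Agent.Lib.Helper4Char3.dvd_of_isIntegral_div _ _ hD0
  have h2 : (((T * e : ℕ) : ℂ) / (D : ℂ)) = (T : ℂ) - (T : ℂ) * ((D : ℂ) - e) / D := by
    push_cast; field_simp; ring
  rw [h2]
  have h3 : IsIntegral ℤ (T : ℂ) := by
    have := isIntegral_algebraMap (R := ℤ) (A := ℂ) (x := (T : ℤ))
    simpa using this
  exact h3.sub h1

end Cfsg.Agent.Lib.Helper21Ointdvd
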