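import Mathlib
import Cfsg.Agent.Lib.Helper21Cls
import Cfsg.Agent.Lib.Helper83Ito
import Cfsg.Agent.Lib.Helper19Gal2
import Cfsg.Agent.Lib.Helper82Mult
import Cfsg.Agent.Lib.Helper82Quot
import Cfsg.Agent.Lib.Helper81BB
import Cfsg.Agent.S4452
import Cfsg.Agent.S0133
import Cfsg.Agent.S0187

set_option autoImplicit false

namespace Cfsg.Agent.Lib.Helper21OneP

open Cfsg
open Cfsg.Agent.Lib.Helper82Quot (inflate inflate_apply)
open Cfsg.Agent.Lib.Helper82Linear (irrOne)

variable {G : Type*} [Group G] [Finite G] {p : ℕ} [Fact p.Prime]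

theorem quotient_comm (hnil : ¬ Group.IsNilpotent G) (N : Subgroup G) [N.Normal]
    (hidx : ∃ k : ℕ, N.index = p ^ k)
    (hone : Nat.card {χ : IrrCharacter G // p ∣ charDegree (χ : G → ℂ)} = 1) :
    ∀ a b : G ⧸ N, a * b = b * a := by
  classical
  have hp : p.Prime := Fact.out
  let _ := Fintype.ofFinite G
  let _ : Fintype N := Fintype.ofFinite N
  obtain ⟨k, hk⟩ := hidx
  rw [Cfsg.Agent.S0187.result]
  by_contra hcon
  push Not at hcon
  obtain ⟨β, hβ⟩ := hcon
  have hβp : p ∣ charDegree (β : G ⧸ N → ℂ) := by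
    have h1 := Cfsg.Agent.Lib.Helper81BB.irr_deg_dvd β
    rw [← Subgroup.index_eq_card, hk] at h1
    obtain ⟨j, _, hj⟩ := (Nat.dvd_prime_pow hp).1 h1
    rcases Nat.eq_zero_or_pos j with rfl | hj0
    · exfalso
      apply hβ
      rw [← Cfsg.Agent.Lib.Helper81Base.charDegree_eq, hj]
      simp
    · rw [hj]
      exact dvd_pow_self p hj0.ne'
  have huniq : ∀ χ χ' : IrrCharacter G, p ∣ charDegree (χ : G → ℂ) →
      p ∣ charDegree (χ' : G → ℂ) → χ = χ' := by
    intro χ χ' h h'
    have := (Nat.card_eq_one_iff_unique.1 hone).1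
    exact congrArg Subtype.val (Subsingleton.elim (⟨χ, h⟩ : {χ : IrrCharacter G //
      p ∣ charDegree (χ : G → ℂ)}) ⟨χ', h'⟩)
  have h0p : p ∣ charDegree (inflate N β : G → ℂ) := hβp
  have hall : ∀ θ : IrrCharacter N, θ = irrOne N := by
    intro θ
    by_contra hθ
    obtain ⟨χ, hχ⟩ := Cfsg.Agent.Lib.Helper83Ito.exists_over N θ.2
    have horth : classInner (fun n : N => (inflate N β : G → ℂ) n) (θ : N → ℂ) = 0 := by
      have h1 : (fun n : N => (inflate N β : G → ℂ) n)
          = ((β : G ⧸ N → ℂ) 1) • (irrOne N : N → ℂ) := by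
        funext n
        rw [inflate_apply, (QuotientGroup.eq_one_iff (n : G)).2 n.2]
        simp [irrOne]
      rw [h1]
      unfold classInner
      simp only [Pi.smul_apply, smul_eq_mul, mul_assoc]
      rw [← Finset.mul_sum, Cfsg.Agent.Lib.Helper81Base.irr_orth, if_neg (Ne.symm hθ)]
      simp
    have hne : ∀ ψ : IrrCharacter G, classInner (fun n : N => (ψ : G → ℂ) n) (θ : N → ℂ) ≠ 0 →
        ¬ p ∣ charDegree (ψ : G → ℂ) := by
      intro ψ hψ hd
      rw [huniq ψ _ hd h0p] at hψ
      exact hψ horth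
    have hχp := hne χ hχ
    obtain ⟨hd1, hd2⟩ := Cfsg.Agent.Lib.Helper83Ito.degree_facts N χ.2 θ.2 hχ
    rw [hk] at hd2
    obtain ⟨j, _, hj⟩ := (Nat.dvd_prime_pow hp).1 hd2
    have hj0 : j = 0 := by
      by_contra hj0
      apply hχp
      have : p ∣ charDegree (χ : G → ℂ) / charDegree (θ : N → ℂ) := by
        rw [hj]; exact dvd_pow_self p hj0
      exact this.trans (Nat.div_dvd_of_dvd hd1)
    rw [hj0, pow_zero] at hj
    have hdeg : charDegree (χ : G → ℂ) = charDegree (θ : N → ℂ) := by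
      have := Nat.div_mul_cancel hd1
      rw [hj, one_mul] at this
      exact this.symm
    have hres : (fun n : N => (χ : G → ℂ) n) = (θ : N → ℂ) := by
      apply Cfsg.Agent.Lib.Helper82Mult.eq_of_degree_le
        (Cfsg.Agent.Lib.Helper4Char4.IsCharacter.restrict N
          (Cfsg.Agent.Lib.Helper82Irr.irr_isCharacter χ)) θ hχ
      exact hdeg.le
    have hgal := Cfsg.Agent.Lib.Helper19Gal2.gallagher N.subtype N.subtype_injective
      MulAut.conjNormal (fun g n => MulAut.conjNormal_apply g n) θ.2 χ.2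
      (fun n => congrFun hres n)
    have hmem := hgal.mapsTo (x := (inflate N β : G → ℂ)) ⟨(inflate N β).2, fun n =>
      Cfsg.Agent.Lib.Helper82Quot.inflate_ker N β n.2⟩
    obtain ⟨h1, h2⟩ := hmem
    apply hne ⟨_, h1⟩ h2
    show p ∣ charDegree ((inflate N β : G → ℂ) * (χ : G → ℂ))
    have : charDegree ((inflate N β : G → ℂ) * (χ : G → ℂ))
        = charDegree (inflate N β : G → ℂ) * charDegree (χ : G → ℂ) := by
      have h3 : ((charDegree ((inflate N β : G → ℂ) * (χ : G → ℂ)) : ℕ) : ℂ)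
          = ((charDegree (inflate N β : G → ℂ) * charDegree (χ : G → ℂ) : ℕ) : ℂ) := by
        rw [Nat.cast_mul, Cfsg.Agent.Lib.Helper81Base.charDegree_eq,
          Cfsg.Agent.Lib.Helper81Base.charDegree_eq]
        exact Cfsg.Agent.Lib.Helper81Base.charDegree_eq ⟨_, h1⟩
      exact_mod_cast h3
    rw [this]
    exact h0p.mul_right _
  -- hence N is trivial
  have hN1 : Nat.card (ConjClasses N) = 1 := by
    rw [← Cfsg.Agent.S0133.result, Nat.card_eq_one_iff_unique]
    exact ⟨⟨fun a b => by rw [hall a, hall b]⟩, ⟨irrOne N⟩⟩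
  have hNbot : N = ⊥ := by
    rw [Subgroup.eq_bot_iff_forall]
    intro x hx
    have := (Nat.card_eq_one_iff_unique.1 hN1).1
    have h1 : ConjClasses.mk (⟨x, hx⟩ : N) = ConjClasses.mk 1 := Subsingleton.elim _ _
    rw [ConjClasses.mk_eq_mk_iff_isConj, isConj_one_left] at h1
    exact congrArg Subtype.val h1
  apply hnil
  have hG : IsPGroup p G := by
    apply IsPGroup.of_card (n := k)
    rw [← hk, hNbot, Subgroup.index_bot]
  exact hG.isNilpotent

theorem card_split {α : Type*} [Finite α] (q : α → Prop) :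
    Nat.card {x // q x} + Nat.card {x // ¬ q x} = Nat.card α := by
  classical
  rw [← Nat.card_sum]
  exact Nat.card_congr (Equiv.sumCompl q)

theorem one_class (hnil : ¬ Group.IsNilpotent G) (N : Subgroup G) [N.Normal]
    (hN : (Nat.card N).Coprime p) (hidx : ∃ k : ℕ, N.index = p ^ k)
    (hone : Nat.card {χ : IrrCharacter G // p ∣ charDegree (χ : G → ℂ)} = 1) :
    Nat.card {C : ConjClasses G // p ∣ Nat.card C.carrier} = 1 := by
  classical
  have hp : p.Prime := Fact.out
  obtain ⟨P⟩ : Nonempty (Sylow p G) := inferInstance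
  have hq := quotient_comm hnil N hidx hone
  obtain ⟨k, hk⟩ := hidx
  have hPc := P.card_eq_multiplicity
  have hcop : (Nat.card N).Coprime (Nat.card (P : Subgroup G)) := by
    rw [hPc]; exact Nat.Coprime.pow_right _ hN
  have hNP : ∀ x, x ∈ N → x ∈ (P : Subgroup G) → x = 1 := by
    intro x h1 h2
    have := Subgroup.inf_eq_bot_of_coprime hcop
    exact (Subgroup.eq_bot_iff_forall _).1 this x ⟨h1, h2⟩
  have hPab : ∀ x ∈ (P : Subgroup G), ∀ y ∈ (P : Subgroup G), x * y = y * x := by
    intro x hx y hy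
    have h1 : x * y * x⁻¹ * y⁻¹ ∈ N := by
      rw [← QuotientGroup.eq_one_iff]
      simp only [QuotientGroup.mk_mul, QuotientGroup.mk_inv]
      rw [hq (x : G ⧸ N) y]
      group
    have h2 : x * y * x⁻¹ * y⁻¹ ∈ (P : Subgroup G) :=
      mul_mem (mul_mem (mul_mem hx hy) (inv_mem hx)) (inv_mem hy)
    have h3 := hNP _ h1 h2
    calc x * y = (x * y * x⁻¹ * y⁻¹) * (y * x) := by group
      _ = y * x := by rw [h3, one_mul]
  have hsup : N ⊔ (P : Subgroup G) = ⊤ := by
    rw [← Subgroup.index_eq_one]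
    have h1 : (N ⊔ (P : Subgroup G)).index ∣ p ^ k := hk ▸ Subgroup.index_dvd_of_le le_sup_left
    have h2 : (N ⊔ (P : Subgroup G)).index ∣ (P : Subgroup G).index :=
      Subgroup.index_dvd_of_le le_sup_right
    have h3 : Nat.Coprime (p ^ k) (P : Subgroup G).index :=
      Nat.Coprime.pow_left _ ((Nat.Prime.coprime_iff_not_dvd hp).2 P.not_dvd_index)
    exact Nat.eq_one_of_dvd_coprimes h3 h1 h2
  have hNC : Subgroup.normalizer ((P : Subgroup G) : Set G)
      ≤ Subgroup.centralizer ((P : Subgroup G) : Set G) := by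
    intro g hg
    obtain ⟨n, hn, u, hu, rfl⟩ := Subgroup.mem_sup_of_normal_left.1
      (show g ∈ N ⊔ (P : Subgroup G) from hsup ▸ Subgroup.mem_top g)
    have hnN : n ∈ Subgroup.normalizer ((P : Subgroup G) : Set G) := by
      have := mul_mem hg (inv_mem (Subgroup.le_normalizer hu))
      simpa using this
    rw [Subgroup.mem_centralizer_iff]
    intro x hx
    have h1 : n * x * n⁻¹ ∈ (P : Subgroup G) := (Subgroup.mem_normalizer_iff.1 hnN x).1 hx
    have h2 : n * x * n⁻¹ * x⁻¹ ∈ (P : Subgroup G) := mul_mem h1 (inv_mem hx)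
    have h3 : n * x * n⁻¹ * x⁻¹ ∈ N := by
      have : n * x * n⁻¹ * x⁻¹ = n * (x * n⁻¹ * x⁻¹) := by group
      rw [this]
      exact mul_mem hn (‹N.Normal›.conj_mem _ (inv_mem hn) x)
    have h4 := hNP _ h3 h2
    have h5 : n * x = x * n := by
      calc n * x = (n * x * n⁻¹ * x⁻¹) * (x * n) := by group
        _ = x * n := by rw [h4, one_mul]
    calc x * (n * u) = (x * n) * u := by group
      _ = n * (x * u) := by rw [← h5]; group
      _ = n * u * x := by rw [hPab x hx u hu]; group
  have hsolv : Group.IsSolvable (P : Subgroup G) := by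
    have := P.2.isNilpotent
    infer_instance
  have h4452 := Cfsg.Agent.S4452.result N (P : Subgroup G) hsup hcop hsolv
  -- p divides |G|
  have hpos : 0 < (Nat.card G).factorization p := by
    have : Nonempty {χ : IrrCharacter G // p ∣ charDegree (χ : G → ℂ)} :=
      (Nat.card_eq_one_iff_unique.1 hone).2
    obtain ⟨χ, hχ⟩ := this
    have h1 := hχ.trans (Cfsg.Agent.Lib.Helper81BB.irr_deg_dvd χ)
    exact hp.factorization_pos_of_dvd Nat.card_pos.ne' h1
  have hiff : ∀ d : ℕ, d.Coprime (Nat.card (P : Subgroup G)) ↔ ¬ p ∣ d := by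
    intro d
    rw [hPc, Nat.coprime_pow_right_iff hpos, Nat.coprime_comm,
      Nat.Prime.coprime_iff_not_dvd hp]
  have hall : ∀ η : IrrCharacter (Subgroup.normalizer ((P : Subgroup G) : Set G)),
      (charDegree (η : Subgroup.normalizer ((P : Subgroup G) : Set G) → ℂ)).Coprime
        (Nat.card (P : Subgroup G)) := by
    intro η
    rw [hiff]
    intro hd
    have h1 := Cfsg.Agent.Lib.Helper83Ito.ito
      ((P : Subgroup G).subgroupOf (Subgroup.normalizer ((P : Subgroup G) : Set G)))
      (fun a b => by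
        apply Subtype.ext
        apply Subtype.ext
        exact hPab _ a.2 _ b.2) η
    apply P.not_dvd_index
    exact (hd.trans h1).trans (Subgroup.relIndex_dvd_index_of_le Subgroup.le_normalizer)
  have e1 : Nat.card {η : IrrCharacter (Subgroup.normalizer ((P : Subgroup G) : Set G)) //
      (charDegree (η : Subgroup.normalizer ((P : Subgroup G) : Set G) → ℂ)).Coprime
        (Nat.card (P : Subgroup G))}
      = Nat.card (ConjClasses (Subgroup.normalizer ((P : Subgroup G) : Set G))) := by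
    rw [← Cfsg.Agent.S0133.result]
    exact Nat.card_congr (Equiv.subtypeUnivEquiv hall)
  have e2 : Nat.card {χ : IrrCharacter G // (charDegree (χ : G → ℂ)).Coprime
      (Nat.card (P : Subgroup G))} = Nat.card {χ : IrrCharacter G // ¬ p ∣ charDegree (χ : G → ℂ)} :=
    Nat.card_congr (Equiv.subtypeEquivRight (fun χ => hiff _))
  have e3 := Cfsg.Agent.Lib.Helper21Cls.card_classes_not_dvd P hNC
  have e4 := card_split (fun χ : IrrCharacter G => p ∣ charDegree (χ : G → ℂ))
  have e5 := card_split (fun C : ConjClasses G => p ∣ Nat.card C.carrier)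
  have e6 := Cfsg.Agent.S0133.result (G := G)
  omega

end Cfsg.Agent.Lib.Helper21OneP
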