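import Mathlib
import Cfsg.Agent.Lib.Helper44ODefs
import Cfsg.Agent.Lib.Helper44SpSiegel

set_option autoImplicit false
set_option linter.unusedSectionVars false

namespace Cfsg.Agent.Lib.Helper21Owts

open Matrix Cfsg Cfsg.Agent.Lib.Helper44Wt Cfsg.Agent.Lib.Helper44Lam
  Cfsg.Agent.Lib.Helper44SLDefs Cfsg.Agent.Lib.Helper44ODefs

variable {F : Type*} [Field F] [Fintype F] [DecidableEq F]

variable {G : Type*} [Group G] {n : ℕ}

theorem trace_eq_zero (ψ : AddChar F ℂ) (hψ : ψ.IsPrimitive)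
    (u : Multiplicative (Matrix (Fin n) (Fin n) F) →* G) (χ : G → ℂ)
    (hker : ∀ X : Matrix (Fin n) (Fin n) F, Xᵀ = X → u (Multiplicative.ofAdd X) = 1)
    (C : Matrix (Fin n) (Fin n) F) (h : wt u χ (lam ψ C) ≠ 0)
    (X : Matrix (Fin n) (Fin n) F) (hX : Xᵀ = X) : Matrix.trace (C * X) = 0 := by
  by_contra hne
  apply hψ (a := Matrix.trace (C * X)) hne
  ext t
  rw [AddChar.mulShift_apply]
  have h1 := wt_ker u χ (lam ψ C) (t • X)
    (hker _ (by rw [Matrix.transpose_smul, hX])) h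
  rw [lam_apply, Matrix.mul_smul, Matrix.trace_smul, smul_eq_mul, mul_comm] at h1
  simpa using h1

theorem wt_alt (ψ : AddChar F ℂ) (hψ : ψ.IsPrimitive)
    (u : Multiplicative (Matrix (Fin n) (Fin n) F) →* G) (χ : G → ℂ)
    (hker : ∀ X : Matrix (Fin n) (Fin n) F, Xᵀ = X → u (Multiplicative.ofAdd X) = 1)
    (C : Matrix (Fin n) (Fin n) F) (h : wt u χ (lam ψ C) ≠ 0) : IsAltM C := by
  have key := trace_eq_zero ψ hψ u χ hker C h
  constructor
  · ext i j
    have h1 := key (Matrix.single i j 1 + Matrix.single j i 1) (by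
      rw [Matrix.transpose_add, Matrix.transpose_single, Matrix.transpose_single, add_comm])
    rw [Matrix.trace_mul_comm, Matrix.add_mul, Matrix.trace_add, Matrix.trace_single_mul,
      Matrix.trace_single_mul] at h1
    rw [Matrix.transpose_apply, Matrix.neg_apply]
    rw [one_smul, one_smul] at h1
    exact eq_neg_of_add_eq_zero_left h1
  · intro i
    have h1 := key (Matrix.single i i 1) (by rw [Matrix.transpose_single])
    rw [Matrix.trace_mul_comm, Matrix.trace_single_mul] at h1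
    simpa using h1

theorem wt_inv (ψ : AddChar F ℂ)
    (u : Multiplicative (Matrix (Fin n) (Fin n) F) →* G) (g : sqGL n F →* G) (χ : G → ℂ)
    (hχ : IsClassFunction G χ)
    (hrel : ∀ (A : sqGL n F) (X : Matrix (Fin n) (Fin n) F),
      g A * u (Multiplicative.ofAdd X) = u (Multiplicative.ofAdd (mt A * X * (mt A)ᵀ)) * g A)
    (A : sqGL n F) (C : Matrix (Fin n) (Fin n) F) :
    wt u χ (lam ψ ((mt A)ᵀ * C * mt A)) = wt u χ (lam ψ C) := by
  apply wt_conj u χ (Cfsg.Agent.Lib.Helper44SpSiegel.congrGL (A : GL (Fin n) F))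
  · intro X
    rw [Cfsg.Agent.Lib.Helper44SpSiegel.congrGL_apply]
    have h1 : u (Multiplicative.ofAdd (mt A * X * (mt A)ᵀ))
        = g A * u (Multiplicative.ofAdd X) * (g A)⁻¹ := by
      rw [hrel A X, mul_inv_cancel_right]
    show χ (u (Multiplicative.ofAdd (mt A * X * (mt A)ᵀ))) = _
    rw [h1]
    exact hχ _ _
  · intro T
    rw [lam_apply, lam_apply, Cfsg.Agent.Lib.Helper44SpSiegel.congrGL_apply]
    congr 1
    rw [Matrix.mul_assoc, Matrix.mul_assoc, Matrix.trace_mul_comm]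
    simp only [Matrix.mul_assoc]

theorem wt_sum_lam (ψ : AddChar F ℂ) (hψ : ψ.IsPrimitive)
    (u : Multiplicative (Matrix (Fin n) (Fin n) F) →* G) (χ : G → ℂ)
    (X : Matrix (Fin n) (Fin n) F) :
    χ (u (Multiplicative.ofAdd X)) =
      ∑ C : Matrix (Fin n) (Fin n) F, wt u χ (lam ψ C) * ψ (Matrix.trace (C * X)) := by
  rw [wt_inversion u χ X]
  symm
  apply Fintype.sum_bijective (lam ψ) ⟨lam_injective ψ hψ, lam_surjective ψ hψ⟩
  intro C
  rw [lam_apply]

end Cfsg.Agent.Lib.Helper21Owts
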