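import Cfsg.Agent.Lib.Helper43SpDefs

set_option autoImplicit false

namespace Cfsg.Agent.Lib.Helper21SpKh

open Matrix Cfsg.Agent.Lib.Helper43St Cfsg.Agent.Lib.Helper43Sp

variable {m : ℕ} {F : Type*} [Field F]

theorem Km_one : Km (1 : Fin m → SpecialLinearGroup (Fin 2) F) = 1 := by
  unfold Km
  simp [← fromBlocks_one]

theorem Km_mul (z w : Fin m → SpecialLinearGroup (Fin 2) F) : Km (z * w) = Km z * Km w := by
  unfold Km
  rw [fromBlocks_multiply]
  have h : ∀ (i : Fin m) (a b : Fin 2), (z i * w i) a b = z i a 0 * w i 0 b + z i a 1 * w i 1 b := by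
    intro i a b
    show ((z i).1 * (w i).1) a b = _
    rw [Matrix.mul_apply, Fin.sum_univ_two]
  simp only [diagonal_mul_diagonal, diagonal_add, Pi.mul_apply, h]

theorem Km_mem (z : Fin m → SpecialLinearGroup (Fin 2) F) :
    Km z ∈ Matrix.symplecticGroup (Fin m) F := by
  rw [SymplecticGroup.mem_iff]
  unfold Km Matrix.J
  rw [fromBlocks_transpose, fromBlocks_multiply, fromBlocks_multiply]
  have hdet : ∀ i, z i 0 0 * z i 1 1 - z i 0 1 * z i 1 0 = 1 := by
    intro i
    have := (z i).2
    rw [Matrix.det_fin_two] at this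
    exact this
  simp only [mul_zero, mul_one, zero_add, mul_neg, add_zero, diagonal_transpose, neg_mul,
    diagonal_mul_diagonal]
  congr 1
  · ext i j
    by_cases h : i = j
    · subst h; simp [mul_comm]
    · simp [h]
  · ext i j
    by_cases h : i = j
    · subst h
      have := hdet i
      simp
      linear_combination -this
    · simp [h]
  · ext i j
    by_cases h : i = j
    · subst h
      have := hdet i
      simp
      linear_combination this
    · simp [h]
  · ext i j
    by_cases h : i = j
    · subst h; simp [mul_comm]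
    · simp [h]

theorem exists_kh (m : ℕ) (F : Type*) [Field F] :
    ∃ Kh : (Fin m → SpecialLinearGroup (Fin 2) F) →* Sp m F,
      ∀ z, ((Kh z : Sp m F) : Matrix (I m) (I m) F) = Km z :=
  ⟨{ toFun := fun z => ⟨Km z, Km_mem z⟩
     map_one' := Subtype.ext Km_one
     map_mul' := fun z w => Subtype.ext (Km_mul z w) }, fun _ => rfl⟩

theorem Km_X (i : Fin m) (t : F) :
    Km (Pi.mulSingle i (tv 0 1 t)) = Xm (Sum.inl i) (Sum.inr i) t ∧
    Km (Pi.mulSingle i (tv 1 0 t)) = Xm (Sum.inr i) (Sum.inl i) t := by
  have hent : ∀ (a b : Fin 2) (hab : a ≠ b) (c d : Fin 2) (j : Fin m),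
      ((Pi.mulSingle i (tv a b t) : Fin m → SpecialLinearGroup (Fin 2) F) j) c d
        = (if c = d then 1 else 0) + (if j = i ∧ c = a ∧ d = b then t else 0) := by
    intro a b hab c d j
    by_cases hj : j = i
    · subst hj
      rw [Pi.mulSingle_eq_same, tv_val a b hab]
      simp [Matrix.one_apply, Matrix.single_apply, eq_comm]
    · rw [Pi.mulSingle_eq_of_ne hj]
      simp [Matrix.one_apply, hj]
  constructor
  · unfold Km Xm
    rw [if_pos (show (Sum.inr i : I m) = ng (Sum.inl i) from rfl)]
    ext (a | a) (b | b) <;>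
      simp [hent 0 1 (by decide), Matrix.diagonal_apply, Matrix.one_apply, Matrix.single_apply]
    by_cases hab : a = b
    · subst hab
      by_cases hai : a = i
      · subst hai; simp
      · simp [hai, Ne.symm hai]
    · rw [if_neg hab, if_neg]
      rintro ⟨rfl, rfl⟩
      exact hab rfl
  · unfold Km Xm
    rw [if_pos (show (Sum.inl i : I m) = ng (Sum.inr i) from rfl)]
    ext (a | a) (b | b) <;>
      simp [hent 1 0 (by decide), Matrix.diagonal_apply, Matrix.one_apply, Matrix.single_apply]
    by_cases hab : a = b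
    · subst hab
      by_cases hai : a = i
      · subst hai; simp
      · simp [hai, Ne.symm hai]
    · rw [if_neg hab, if_neg]
      rintro ⟨rfl, rfl⟩
      exact hab rfl

end Cfsg.Agent.Lib.Helper21SpKh
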