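import Cfsg.Agent.Lib.Helper23To2
import Cfsg.Agent.Lib.Helper23Un4

set_option autoImplicit false
set_option linter.unusedSectionVars false
set_option linter.unusedVariables false

/-! Lifting Steinberg's relations to a central extension of a Chevalley group by means of the torus. -/

namespace Cfsg.Agent.Lib.Helper23To

open Subgroup Cfsg.Lie Cfsg.Lie.ChevalleyDatum Cfsg.Agent.Lib.Helper22ChevBasic Cfsg.Agent.Lib.Helper23Grp
  Cfsg.Agent.Lib.Helper23St Cfsg.Agent.Lib.Helper23Un
open scoped commutatorElement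

variable {D : ChevalleyDatum} (hD : Std D) {K : Type*} [Field K] {E : Type*} [Group E]
  {π : E →* ↥(D.group K)} (hπ : Function.Surjective π) (hc : π.ker ≤ center E)

/-- the canonical lift of a root element -/
noncomputable def Y (cr : ℕ → Fin D.rank → Kˣ) (r : ℕ) (t : K) : E :=
  br hπ (tq hD (cr r)) (xq hD r (t / (chi (cr r) r - 1)))

variable {cr : ℕ → Fin D.rank → Kˣ} (hcr : ∀ r, r < D.nroots → chi (cr r) r ≠ 1)

include hcr in
theorem π_Y {r : ℕ} (hr : r < D.nroots) (t : K) : π (Y hD hπ cr r t) = xq hD r t := by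
  unfold Y
  rw [π_br, commutatorElement_def, tq_conj hD _ hr, xq_inv, xq_add]
  congr 1
  have : chi (cr r) r - 1 ≠ 0 := sub_ne_zero.2 (hcr r hr)
  field_simp
  ring

include hc in
theorem Y_conj {g : E} {c : Fin D.rank → Kˣ} (hg : π g = tq hD c) {r : ℕ} (hr : r < D.nroots) (t : K) :
    g * Y hD hπ cr r t * g⁻¹ = Y hD hπ cr r (chi c r * t) := by
  unfold Y br
  rw [conjugate_commutatorElement]
  apply comm_congr hc
  · rw [map_mul, map_mul, map_inv, hg, Function.surjInv_eq hπ, tq_comm]
  · rw [map_mul, map_mul, map_inv, hg, Function.surjInv_eq hπ, Function.surjInv_eq hπ, tq_conj hD _ hr, mul_div_assoc]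

include hc in
theorem br_one (h : ↥(D.group K)) : br hπ 1 h = 1 := by
  rw [← br_eq hπ hc (a := 1) (b := Function.surjInv hπ h) (map_one π) (Function.surjInv_eq hπ h)]
  simp

variable (hself : ∀ r, r < D.nroots → ∀ t u : K, br hπ (xq hD r t) (xq hD r u) = 1)

include hc hself in
theorem Y_add {r : ℕ} (hr : r < D.nroots) (t u : K) :
    Y hD hπ cr r t * Y hD hπ cr r u = Y hD hπ cr r (t + u) := by
  unfold Y
  rw [add_div, ← xq_add, br_mul_right hπ hc]
  rw [commutatorElement_def, tq_conj hD _ hr, xq_inv, xq_add]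
  exact hself r hr _ _

/-- the partial structure on the extension -/
noncomputable def ps : PS hD K E where
  X := Y hD hπ cr
  θ := (D.group K).subtype.comp π
  θX r hr t := by
    rw [MonoidHom.comp_apply, π_Y hD hπ hcr hr]; rfl
  add r hr t u := Y_add hD hπ hc hself hr t u

theorem π_word (w : List (ℕ × K)) (hw : ∀ p ∈ w, p.1 < D.nroots) :
    π ((w.map fun p => (ps hD hπ hc hcr hself).X p.1 p.2).prod) = (w.map fun p => xq hD p.1 p.2).prod := by
  rw [map_list_prod, List.map_map]
  congr 1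
  apply List.map_congr_left
  intro p hp
  exact π_Y hD hπ hcr (hw p hp) p.2

theorem rel_step {r s : ℕ} (hr : r < D.nroots) (hs : s < D.nroots) (h1 : s ≠ r) (h2 : s ≠ D.neg r)
    (c : Fin D.rank → Kˣ) (hc1 : chi c r = 1) (hc2 : chi c s ≠ 1) (L : List ℕ) (hL1 : nilB D (s :: L) = true)
    (hL2 : ∀ a ∈ s :: L, a < D.nroots) (hL3 : IndL hD K (s :: L))
    (hL4 : (s :: L).Pairwise (fun a b => (ps hD hπ hc hcr hself).Rel a b))
    (hL5 : ∀ e ∈ D.commTerms r s, e.1 ∈ L) : (ps hD hπ hc hcr hself).Rel r s := by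
  set T := ps hD hπ hc hcr hself with hT
  have hI := T.Inj_list (s :: L) hL1 hL2 hL3 hL4
  have TX : ∀ a v, T.X a v = Y hD hπ cr a v := fun _ _ => rfl
  have πX : ∀ a, a < D.nroots → ∀ v, π (T.X a v) = xq hD a v := fun a ha v => π_Y hD hπ hcr ha v
  have hwm : ∀ t u : K, ∀ p ∈ D.commWord K r s t u, p.1 ∈ L := by
    intro t u p hp
    unfold commWord at hp
    obtain ⟨e, he, rfl⟩ := List.mem_map.1 hp
    exact hL5 e he
  have πW : ∀ t u : K, π (((D.commWord K r s t u).map fun p => T.X p.1 p.2).prod) =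
      ((D.commWord K r s t u).map fun p => xq hD p.1 p.2).prod := fun t u =>
    π_word hD hπ hc hcr hself _ (fun p hp => hL2 _ (List.mem_cons_of_mem _ (hwm t u p hp)))
  have Wmem : ∀ t u : K, ((D.commWord K r s t u).map fun p => T.X p.1 p.2).prod ∈ T.XP (· ∈ s :: L) := fun t u =>
    T.word_mem _ (fun p hp => List.mem_cons_of_mem _ (hwm t u p hp))
  -- images of conjugates
  have key : ∀ t u : K, π ((T.X r t)⁻¹ * T.X s u * (T.X r t)⁻¹⁻¹) =
      π (T.X s u * ((D.commWord K r s t u).map fun p => T.X p.1 p.2).prod) := by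
    intro t u
    rw [inv_inv, map_mul, map_mul, map_inv, map_mul, πW, πX r hr, πX s hs, mul_assoc, xq_comm hD hr hs h1 h2]
    group
  intro t u
  obtain ⟨g, hg⟩ := hπ (tq hD c)
  set lam := chi c s with hlam
  have hl : lam - 1 ≠ 0 := sub_ne_zero.2 hc2
  set u' := u / (lam - 1) with hu'
  set a := (T.X r t)⁻¹ with ha
  set b := T.X s u' with hb
  have e1 : g * a * g⁻¹ = a := by
    rw [ha, T.X_inv hr, TX, Y_conj hD hπ hc hg hr, hc1, one_mul]
  have e1' : a * g * a⁻¹ = g := by
    have : g * a = a * g := by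
      conv_rhs => rw [← e1]
      group
    rw [← this, mul_inv_cancel_right]
  have e2 : ⁅g, b⁆ = T.X s u := by
    rw [commutatorElement_def, hb, TX, Y_conj hD hπ hc hg hs, ← TX, ← TX, T.X_inv hs, T.add s hs]
    congr 1
    rw [hu', ← hlam]
    field_simp
    ring
  set B := b * ((D.commWord K r s t u').map fun p => T.X p.1 p.2).prod with hB
  have Bmem : B ∈ T.XP (· ∈ s :: L) := mul_mem (T.X_mem List.mem_cons_self _) (Wmem t u')
  have e4 : a * T.X s u * a⁻¹ = ⁅g, B⁆ := by
    rw [← e2, conjugate_commutatorElement, e1']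
    exact comm_congr hc rfl (key t u')
  have e5 : ⁅g, B⁆ ∈ T.XP (· ∈ s :: L) := by
    rw [commutatorElement_def]
    refine mul_mem ?_ (inv_mem Bmem)
    refine conj_closure_mem ?_ B Bmem
    rintro _ ⟨q, v, hq, rfl⟩
    rw [TX, Y_conj hD hπ hc hg (hL2 q hq)]
    exact T.X_mem hq _
  have e6 : a * T.X s u * a⁻¹ = T.X s u * ((D.commWord K r s t u).map fun p => T.X p.1 p.2).prod := by
    apply hI.eq (e4 ▸ e5) (mul_mem (T.X_mem List.mem_cons_self _) (Wmem t u))
    show (D.group K).subtype (π _) = (D.group K).subtype (π _)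
    rw [key t u]
  rw [mul_assoc, ← e6, ha]
  group

/-- relation for a commuting pair from the vanishing of the commutator of lifts -/
theorem rel_of_br {r s : ℕ} (hr : r < D.nroots) (hs : s < D.nroots) (h0 : D.commTerms r s = [])
    (h : ∀ t u : K, br hπ (xq hD r t) (xq hD s u) = 1) : (ps hD hπ hc hcr hself).Rel r s := by
  intro t u
  unfold commWord
  rw [h0]
  simp only [List.map_nil, List.prod_nil, mul_one]
  exact (commute_of_br hπ hc (h t u) (π_Y hD hπ hcr hr t) (π_Y hD hπ hcr hs u)).symm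

/-- all relations, by induction on the number of terms of the commutator formula -/
theorem all_rel
    (H : ∀ r s, r < D.nroots → s < D.nroots → s ≠ r → s ≠ D.neg r →
      (ps hD hπ hc hcr hself).Rel r s ∨
      ((∃ c : Fin D.rank → Kˣ, chi c r = 1 ∧ chi c s ≠ 1) ∧
        ∃ L : List ℕ, nilB D (s :: L) = true ∧ (∀ a ∈ s :: L, a < D.nroots) ∧ IndL hD K (s :: L) ∧
          (∀ e ∈ D.commTerms r s, e.1 ∈ L) ∧
          (s :: L).Pairwise (fun a b => b ≠ a ∧ b ≠ D.neg a ∧
            (D.commTerms a b).length < (D.commTerms r s).length))) :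
    ∀ r s, r < D.nroots → s < D.nroots → s ≠ r → s ≠ D.neg r → (ps hD hπ hc hcr hself).Rel r s := by
  have main : ∀ k r s, (D.commTerms r s).length = k → r < D.nroots → s < D.nroots → s ≠ r → s ≠ D.neg r →
      (ps hD hπ hc hcr hself).Rel r s := by
    intro k
    induction k using Nat.strong_induction_on with
    | _ k ih =>
      intro r s hk hr hs h1 h2
      rcases H r s hr hs h1 h2 with h | ⟨⟨c, hc1, hc2⟩, L, hL1, hL2, hL3, hL5, hL4⟩
      · exact h
      · refine rel_step hD hπ hc hcr hself hr hs h1 h2 c hc1 hc2 L hL1 hL2 hL3 ?_ hL5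
        have := List.Pairwise.and_mem.1 hL4
        refine this.imp ?_
        rintro a b ⟨ha, hb, n1, n2, hlt⟩
        exact ih _ (hk ▸ hlt) a b rfl (hL2 a ha) (hL2 b hb) n1 n2
  intro r s
  exact main _ r s rfl

/-- the lift of the canonical map from the group presented by (R1), (R2) -/
theorem exists_lift_of_rel
    (H : ∀ r s, r < D.nroots → s < D.nroots → s ≠ r → s ≠ D.neg r → (ps hD hπ hc hcr hself).Rel r s) :
    ∃ τ : D.SteinbergCover K →* E, ∀ r t, r < D.nroots → π (τ (D.scGen K r t)) = xq hD r t := by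
  classical
  set T := ps hD hπ hc hcr hself with hT
  set Y1 : ℕ → K → E := fun r t => if r < D.nroots then T.X r t else 1 with hY1
  have Y1in : ∀ r, r < D.nroots → ∀ t, Y1 r t = T.X r t := fun r hr t => if_pos hr
  obtain ⟨τ, hτ⟩ := exists_hom_of_rel D K Y1 (fun r t hr => if_neg hr)
    (fun r t u hr => by rw [Y1in r hr, Y1in r hr, Y1in r hr]; exact T.add r hr t u)
    (by
      intro r s t u hr hs h1 h2
      rw [Y1in r hr, Y1in s hs, H r s hr hs h1 h2 t u]
      congr 2
      apply List.map_congr_left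
      intro p hp
      symm
      apply Y1in
      unfold commWord at hp
      obtain ⟨e, he, rfl⟩ := List.mem_map.1 hp
      exact Cfsg.Agent.Lib.Helper23StV.commTerms_lt_nroots hD r s e he)
  exact ⟨τ, fun r t hr => by rw [hτ, Y1in r hr]; exact π_Y hD hπ hcr hr t⟩

end Cfsg.Agent.Lib.Helper23To
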