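import Mathlib

set_option autoImplicit false
set_option linter.unusedSectionVars false
set_option linter.unusedVariables false

/-! A biadditive alternating map on a field with more than four elements which is invariant under simultaneous scaling
of its two arguments is trivial. -/

namespace Cfsg.Agent.Lib.Helper23To

theorem exists_avoid {K : Type*} [Field K] (hK : ∃ s : Finset K, 4 < s.card) (a b c d : K) :
    ∃ x : K, x ≠ a ∧ x ≠ b ∧ x ≠ c ∧ x ≠ d := by
  classical
  obtain ⟨s, hs⟩ := hK
  have : ({a, b, c, d} : Finset K).card < s.card := lt_of_le_of_lt Finset.card_le_four hs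
  obtain ⟨x, _, hx⟩ := Finset.exists_mem_notMem_of_card_lt_card this
  simp only [Finset.mem_insert, Finset.mem_singleton, not_or] at hx
  exact ⟨x, hx.1, hx.2.1, hx.2.2.1, hx.2.2.2⟩

theorem biadd_trivial {K : Type*} [Field K] (hK : ∃ s : Finset K, 4 < s.card) {C : Type*} [CommGroup C] (f : K → K → C)
    (h1 : ∀ t t' u, f (t + t') u = f t u * f t' u) (h2 : ∀ t u u', f t (u + u') = f t u * f t u')
    (h3 : ∀ t, f t t = 1) (h4 : ∀ l t u, l ≠ 0 → f (l * t) (l * u) = f t u) : ∀ t u, f t u = 1 := by
  set g : K → C := fun w => f 1 w with hg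
  have g_add : ∀ a b, g (a + b) = g a * g b := fun a b => h2 1 a b
  have g_zero : g 0 = 1 := by
    have := g_add 0 0
    rw [add_zero] at this
    exact (mul_eq_left.1 this.symm)
  have g_one : g 1 = 1 := h3 1
  have g_neg : ∀ a, g (-a) = (g a)⁻¹ := by
    intro a
    rw [eq_inv_iff_mul_eq_one, ← g_add, neg_add_cancel, g_zero]
  have f_eq : ∀ t u, t ≠ 0 → f t u = g (u / t) := by
    intro t u ht
    have := h4 t⁻¹ t u (inv_ne_zero ht)
    rw [inv_mul_cancel₀ ht] at this
    rw [← this, hg, div_eq_inv_mul]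
  have E0 : ∀ p q, p ≠ 0 → q ≠ 0 → p + q ≠ 0 → g (p * q / (p + q)) = g p * g q := by
    intro p q hp hq hpq
    have h := h1 (1 / p) (1 / q) 1
    have n1 : 1 / p + 1 / q ≠ 0 := by
      have : 1 / p + 1 / q = (p + q) / (p * q) := by field_simp; ring
      rw [this]
      exact div_ne_zero hpq (mul_ne_zero hp hq)
    rw [f_eq _ _ n1, f_eq _ _ (one_div_ne_zero hp), f_eq _ _ (one_div_ne_zero hq)] at h
    have a1 : 1 / (1 / p + 1 / q) = p * q / (p + q) := by
      have : 1 / p + 1 / q = (p + q) / (p * q) := by field_simp; ring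
      rw [this, one_div_div]
    rw [a1, one_div_one_div, one_div_one_div] at h
    exact h
  have E1 : ∀ p s, p ≠ 0 → s ≠ 0 → p ≠ s → g (p ^ 2 / s) = g p * (g s)⁻¹ := by
    intro p s hp hs hps
    have h := E0 p (s - p) hp (sub_ne_zero.2 (Ne.symm hps)) (by rw [add_sub_cancel]; exact hs)
    rw [← g_add, add_sub_cancel] at h
    have a1 : p * (s - p) / s = p + -(p ^ 2 / s) := by field_simp; ring
    rw [a1, g_add, g_neg] at h
    rw [← h]
    simp
  have g_inv : ∀ s, s ≠ 0 → g (1 / s) = (g s)⁻¹ := by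
    intro s hs
    by_cases h : s = 1
    · subst h; simp [g_one]
    · have := E1 1 s one_ne_zero hs (Ne.symm h)
      rw [one_pow, g_one, one_mul] at this
      exact this
  have E2 : ∀ p m, p ≠ 0 → m ≠ 0 → m ≠ p⁻¹ → g (p ^ 2 * m) = g p * g m := by
    intro p m hp hm hpm
    have := E1 p (1 / m) hp (one_div_ne_zero hm) (by
      intro e
      apply hpm
      rw [e]; simp)
    rw [g_inv m hm, inv_inv] at this
    rw [← this]
    congr 1
    field_simp
  have g_triv : ∀ p, g p = 1 := by
    intro p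
    by_cases hp : p = 0
    · rw [hp, g_zero]
    obtain ⟨m, m1, m2, -, -⟩ := exists_avoid hK 0 p⁻¹ 0 0
    obtain ⟨m', n1, n2, n3, n4⟩ := exists_avoid hK 0 p⁻¹ (-m) (p⁻¹ - m)
    have k1 : m + m' ≠ 0 := by
      intro e; apply n3; linear_combination e
    have k2 : m + m' ≠ p⁻¹ := by
      intro e; apply n4; linear_combination e
    have a := E2 p (m + m') hp k1 k2
    rw [mul_add, g_add, g_add, E2 p m hp m1 m2, E2 p m' hp n1 n2] at a
    have : g p * g m * (g p * g m') = g p * (g p * (g m * g m')) := by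
      rw [mul_mul_mul_comm, mul_assoc]
    rw [this] at a
    exact mul_eq_right.1 a
  intro t u
  by_cases ht : t = 0
  · subst ht
    have := h1 0 0 u
    rw [add_zero] at this
    exact (mul_eq_left.1 this.symm)
  · rw [f_eq t u ht, g_triv]

end Cfsg.Agent.Lib.Helper23To
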