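import Cfsg.Agent.Lib.Helper23To3
import Cfsg.Agent.Lib.Helper23To4

set_option autoImplicit false
set_option linter.unusedSectionVars false
set_option linter.unusedVariables false

/-! Certificates for the lifting of Steinberg's relations by means of the torus. -/

namespace Cfsg.Agent.Lib.Helper23To

open Subgroup Cfsg.Lie Cfsg.Lie.ChevalleyDatum Cfsg.Agent.Lib.Helper22ChevBasic Cfsg.Agent.Lib.Helper23Grp
  Cfsg.Agent.Lib.Helper23St Cfsg.Agent.Lib.Helper23Un
open scoped commutatorElement IsMulCommutative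

variable {D : ChevalleyDatum} (hD : Std D) {K : Type*} [Field K] {E : Type*} [Group E]
  {π : E →* ↥(D.group K)} (hπ : Function.Surjective π) (hc : π.ker ≤ center E)

include hc in
theorem br_conj (g : E) (a b : ↥(D.group K)) :
    g * br hπ a b * g⁻¹ = br hπ (π g * a * (π g)⁻¹) (π g * b * (π g)⁻¹) := by
  unfold br
  rw [conjugate_commutatorElement]
  apply comm_congr hc
  · rw [map_mul, map_mul, map_inv, Function.surjInv_eq hπ, Function.surjInv_eq hπ]
  · rw [map_mul, map_mul, map_inv, Function.surjInv_eq hπ, Function.surjInv_eq hπ]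

include hc in
theorem br_mem_center {a b : ↥(D.group K)} (h : a * b = b * a) : br hπ a b ∈ center E := by
  apply hc
  rw [MonoidHom.mem_ker, π_br, commutatorElement_eq_one_iff_mul_comm, h]

/-- pairing of a cocharacter with a root -/
def pairL (D : ChevalleyDatum) (μ : List ℤ) (r : ℕ) : ℤ := ∑ i : Fin D.rank, μ.getD i.val 0 * D.cartan i.val r

theorem chi_mu (v : Kˣ) (μ : List ℤ) {r : ℕ} (hr : r < D.nroots) :
    chi (cpow (D := D) v (fun i => μ.getD i.val 0)) r = ((v ^ pairL D μ r : Kˣ) : K) :=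
  chi_cpow v _ hr

include hc in
/-- the lifts of the elements of a root subgroup commute, if the root takes all values on the torus -/
theorem self_of_torus (hK : ∃ s : Finset K, 4 < s.card) {r : ℕ} (hr : r < D.nroots) (μ : List ℤ)
    (hμ : pairL D μ r = 1) : ∀ t u : K, br hπ (xq hD r t) (xq hD r u) = 1 := by
  have cm : ∀ t u : K, xq hD r t * xq hD r u = xq hD r u * xq hD r t := by
    intro t u; rw [xq_add, xq_add, add_comm]
  have cm1 : ∀ t u : K, ⁅xq hD r t, xq hD r u⁆ = 1 := fun t u => commutatorElement_eq_one_iff_mul_comm.2 (cm t u)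
  set f : K → K → center E := fun t u => ⟨br hπ (xq hD r t) (xq hD r u), br_mem_center hπ hc (cm t u)⟩ with hf
  have key := biadd_trivial hK f
    (by
      intro t t' u
      apply Subtype.ext
      show br hπ (xq hD r (t + t')) (xq hD r u) = br hπ (xq hD r t) (xq hD r u) * br hπ (xq hD r t') (xq hD r u)
      rw [← xq_add, br_mul_left hπ hc (by rw [cm1]; exact br_one hπ hc _)]
      exact (mem_center_iff.1 (br_mem_center hπ hc (cm t u))) _)
    (by
      intro t u u'
      apply Subtype.ext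
      show br hπ (xq hD r t) (xq hD r (u + u')) = br hπ (xq hD r t) (xq hD r u) * br hπ (xq hD r t) (xq hD r u')
      rw [← xq_add, br_mul_right hπ hc (by rw [cm1]; exact br_one hπ hc _)])
    (by
      intro t
      apply Subtype.ext
      show br hπ (xq hD r t) (xq hD r t) = 1
      unfold br
      exact commutatorElement_self _)
    (by
      intro l t u hl
      apply Subtype.ext
      show br hπ (xq hD r (l * t)) (xq hD r (l * u)) = br hπ (xq hD r t) (xq hD r u)
      obtain ⟨g, hg⟩ := hπ (tq hD (cpow (D := D) (Units.mk0 l hl) (fun i => μ.getD i.val 0)))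
      have h1 := br_conj hπ hc g (xq hD r t) (xq hD r u)
      rw [hg, tq_conj hD _ hr, tq_conj hD _ hr, chi_mu _ _ hr, hμ, zpow_one, Units.val_mk0] at h1
      rw [← h1, (mem_center_iff.1 (br_mem_center hπ hc (cm t u))) g, mul_inv_cancel_right])
  intro t u
  exact congrArg Subtype.val (key t u)

theorem xq_commute_of_nil {r s : ℕ} (hr : r < D.nroots) (hs : s < D.nroots) (h1 : s ≠ r) (h2 : s ≠ D.neg r)
    (h0 : D.commTerms r s = []) (t u : K) : xq hD r t * xq hD s u = xq hD s u * xq hD r t := by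
  have := xq_comm hD hr hs h1 h2 t u
  unfold commWord at this
  rw [h0] at this
  simpa using this.symm

include hc in
/-- lifts commute if the second root element is a commutator of elements commuting with the first -/
theorem br_of_dec {r s a b : ℕ} {e : ℤ} (ha : a < D.nroots) (hb : b < D.nroots) (h1 : b ≠ a) (h2 : b ≠ D.neg a)
    (h0 : D.commTerms a b = [(s, e, 1, 1)]) (he : (e : K) ≠ 0)
    (ca : ∀ t u : K, xq hD r t * xq hD a u = xq hD a u * xq hD r t)
    (cb : ∀ t u : K, xq hD r t * xq hD b u = xq hD b u * xq hD r t) :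
    ∀ t u : K, br hπ (xq hD r t) (xq hD s u) = 1 := by
  intro t u
  have h := xq_comm hD ha hb h1 h2 (-(u / (e : K))) 1
  unfold commWord at h
  rw [h0] at h
  simp only [List.map_cons, List.map_nil, List.prod_cons, List.prod_nil, mul_one, pow_one, neg_neg] at h
  rw [mul_div_cancel₀ _ he] at h
  have e1 : xq hD s u = ⁅(xq hD b (1 : K))⁻¹, (xq hD a (-(u / (e : K))))⁻¹⁆ := by
    rw [commutatorElement_def, inv_inv, inv_inv, mul_assoc _ (xq hD b 1), h]
    group
  rw [e1, xq_inv, xq_inv]
  exact br_comm_eq_one hπ hc (cb _ _) (ca _ _)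

/-- certificate for a pair of roots -/
structure Cert where
  mu : List ℤ
  L : List ℕ
  w : List ℕ

def CertOK (D : ChevalleyDatum) (M : List ℕ) (r s : ℕ) (c : Cert) : Prop :=
  pairL D c.mu r = 0 ∧ (pairL D c.mu s).natAbs ∈ M ∧
  nilB D (s :: c.L) = true ∧ (∀ a ∈ s :: c.L, a < D.nroots) ∧ (∀ e ∈ D.commTerms r s, e.1 ∈ c.L) ∧
  (s :: c.L).Pairwise (fun a b => b ≠ a ∧ b ≠ D.neg a ∧ (D.commTerms a b).length < (D.commTerms r s).length) ∧
  (∀ j ∈ c.w, j < D.rank) ∧ ((s :: c.L).map (act D c.w)).Pairwise (· < ·) ∧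
  ∀ a ∈ (s :: c.L).map (act D c.w), D.nroots / 2 ≤ a ∧ a < D.nroots

instance (D : ChevalleyDatum) (M : List ℕ) (r s : ℕ) (c : Cert) : Decidable (CertOK D M r s c) := by
  unfold CertOK; infer_instance

include hc in
theorem lift_main (M : List ℕ) (hM : ∀ m : ℤ, m.natAbs ∈ M → ∃ v : Kˣ, v ^ m ≠ 1)
    (mu1 : ℕ → List ℤ) (h1 : ∀ r, r < D.nroots → (pairL D (mu1 r) r).natAbs ∈ M)
    (hself : ∀ r, r < D.nroots → ∀ t u : K, br hπ (xq hD r t) (xq hD r u) = 1)
    (tbl : ℕ → ℕ → Cert)
    (H : ∀ r s, r < D.nroots → s < D.nroots → s ≠ r → s ≠ D.neg r →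
      (D.commTerms r s = [] ∧ ∀ t u : K, br hπ (xq hD r t) (xq hD s u) = 1) ∨ CertOK D M r s (tbl r s)) :
    ∃ τ : D.SteinbergCover K →* E, ∀ r t, r < D.nroots → π (τ (D.scGen K r t)) = xq hD r t := by
  classical
  have hex : ∀ r, ∃ c : Fin D.rank → Kˣ, r < D.nroots → chi c r ≠ 1 := by
    intro r
    by_cases hr : r < D.nroots
    · obtain ⟨v, hv⟩ := hM _ (h1 r hr)
      refine ⟨cpow (D := D) v (fun i => (mu1 r).getD i.val 0), fun _ => ?_⟩
      rw [chi_mu _ _ hr]
      intro e
      exact hv (Units.ext e)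
    · exact ⟨1, fun h => absurd h hr⟩
  choose cr hcr using hex
  apply exists_lift_of_rel hD hπ hc hcr hself
  apply all_rel
  intro r s hr hs n1 n2
  rcases H r s hr hs n1 n2 with ⟨h0, hb⟩ | ⟨c1, c2, c3, c4, c5, c6, c7, c8, c9⟩
  · left
    exact rel_of_br hD hπ hc hcr hself hr hs h0 hb
  · right
    refine ⟨?_, (tbl r s).L, c3, c4, ?_, c5, c6⟩
    · obtain ⟨v, hv⟩ := hM _ c2
      refine ⟨cpow (D := D) v (fun i => (tbl r s).mu.getD i.val 0), ?_, ?_⟩
      · rw [chi_mu _ _ hr, c1, zpow_zero, Units.val_one]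
      · rw [chi_mu _ _ hs]
        intro e
        exact hv (Units.ext e)
    · exact IndL_word (tbl r s).w c7 _ c4 (IndL_pos _ c8 c9)

end Cfsg.Agent.Lib.Helper23To
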