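import Cfsg.Agent.Lib.Helper23Un1
import Cfsg.Prelude.Def_KGroupFacts

set_option autoImplicit false
set_option linter.unusedSectionVars false
set_option linter.unusedVariables false

/-! The Schur multiplier from a universal perfect central extension. -/

namespace Cfsg.Agent.Lib.Helper23Un

open Subgroup
open scoped commutatorElement

universe u v

theorem schur_of_universal {Δ G : Type u} [Group Δ] [Group G] [Finite Δ] (θ : Δ →* G) (hθ : Function.Surjective θ)
    (hk : θ.ker ≤ center Δ) (hp : commutator Δ = ⊤)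
    (hU : ∀ (Γ : Type u) [Group Γ] (σ : Γ →* G), Function.Surjective σ → σ.ker ≤ center Γ →
      ∃ τ : Δ →* Γ, σ.comp τ = θ)
    {A : Type v} [CommGroup A] (e : θ.ker ≃* A) : Cfsg.HasSchurMultiplier G A := by
  refine ⟨⟨Δ, inferInstance, inferInstance, θ, ⟨hθ, hk, by rw [hp]; exact le_top⟩, ⟨e⟩⟩, ?_⟩
  intro Γ _ _ σ hσ
  obtain ⟨hs, hc, hd⟩ := hσ
  obtain ⟨τ, hτ⟩ := hU Γ σ hs hc
  have hτ' : ∀ d, σ (τ d) = θ d := fun d => by rw [← hτ]; rfl
  -- every element is central times an element of the range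
  have dec : ∀ x : Γ, ∃ k ∈ σ.ker, ∃ d : Δ, x = k * τ d := by
    intro x
    obtain ⟨d, hd⟩ := hθ (σ x)
    refine ⟨x * (τ d)⁻¹, ?_, d, by group⟩
    rw [MonoidHom.mem_ker, map_mul, map_inv, hτ', hd, mul_inv_cancel]
  have hcomm : commutator Γ ≤ τ.range := by
    rw [commutator_def, Subgroup.commutator_le]
    intro x _ y _
    obtain ⟨k, hk, d, rfl⟩ := dec x
    obtain ⟨k', hk', d', rfl⟩ := dec y
    have : ⁅k * τ d, k' * τ d'⁆ = ⁅τ d, τ d'⁆ :=
      comm_congr hc (by rw [map_mul, MonoidHom.mem_ker.1 hk, one_mul]) (by rw [map_mul, MonoidHom.mem_ker.1 hk', one_mul])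
    rw [this, ← map_commutatorElement]
    exact ⟨_, rfl⟩
  have hker : ∀ x ∈ σ.ker, ∃ d ∈ θ.ker, τ d = x := by
    intro x hx
    obtain ⟨d, rfl⟩ := hcomm (hd hx)
    exact ⟨d, by rw [MonoidHom.mem_ker, ← hτ']; exact hx, rfl⟩
  let ρ : θ.ker →* σ.ker :=
    { toFun := fun d => ⟨τ d.1, by rw [MonoidHom.mem_ker, hτ']; exact d.2⟩
      map_one' := by apply Subtype.ext; simp
      map_mul' := fun a b => by apply Subtype.ext; simp }
  refine ⟨ρ.comp e.symm.toMonoidHom, ?_⟩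
  intro x
  obtain ⟨d, hd, hx⟩ := hker x.1 x.2
  refine ⟨e ⟨d, hd⟩, ?_⟩
  apply Subtype.ext
  simp [ρ, hx]

end Cfsg.Agent.Lib.Helper23Un
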