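import Cfsg.Agent.Lib.Helper23To5
import Cfsg.Agent.Lib.Helper23Un5

set_option autoImplicit false
set_option linter.unusedSectionVars false
set_option linter.unusedVariables false

/-! From the lifting of relations to Schur multipliers. -/

namespace Cfsg.Agent.Lib.Helper23To

open Subgroup Cfsg.Lie Cfsg.Lie.ChevalleyDatum Cfsg.Agent.Lib.Helper22ChevBasic Cfsg.Agent.Lib.Helper23Grp
  Cfsg.Agent.Lib.Helper23St Cfsg.Agent.Lib.Helper23Un

theorem exists_unit_pow_ne {K : Type*} [Field K] {N : ℕ} (hK : ∃ s : Finset K, N + 1 < s.card) (m : ℤ)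
    (h0 : m ≠ 0) (hm : m.natAbs ≤ N) : ∃ v : Kˣ, v ^ m ≠ 1 := by
  classical
  obtain ⟨s, hs⟩ := hK
  set k := m.natAbs with hk
  have k0 : 0 < k := Int.natAbs_pos.2 h0
  have hcard : (insert 0 (Polynomial.nthRootsFinset k (1 : K))).card < s.card := by
    refine lt_of_le_of_lt (Finset.card_insert_le _ _) ?_
    have : (Polynomial.nthRootsFinset k (1 : K)).card ≤ k := by
      unfold Polynomial.nthRootsFinset
      exact (Multiset.toFinset_card_le _).trans (Polynomial.card_nthRoots k 1)
    omega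
  obtain ⟨x, _, hx⟩ := Finset.exists_mem_notMem_of_card_lt_card hcard
  rw [Finset.mem_insert, not_or, Polynomial.mem_nthRootsFinset k0] at hx
  refine ⟨Units.mk0 x hx.1, ?_⟩
  have key : (Units.mk0 x hx.1) ^ k ≠ 1 := by
    intro e
    apply hx.2
    have := congrArg Units.val e
    simpa using this
  rcases Int.natAbs_eq m with e | e
  · rw [e, zpow_natCast]; exact key
  · rw [e, zpow_neg, zpow_natCast, ne_eq, inv_eq_one]; exact key

universe u v

theorem schur_main' {D : ChevalleyDatum} (hD : Std D)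
    {F : Type u} [Field F] [Finite F] (hp : commutator (D.SteinbergCover F) = ⊤)
    (hU : ∀ (Γ : Type u) [Group Γ] (σ : Γ →* ↥(D.group F)), Function.Surjective σ → σ.ker ≤ center Γ →
      ∃ τ : D.SteinbergCover F →* Γ, ∀ r t, r < D.nroots → σ (τ (D.scGen F r t)) = xq hD r t)
    {A : Type v} [CommGroup A] (e : (scG hD F).θ.ker ≃* A) : Cfsg.HasSchurMultiplier ↥(D.group F) A := by
  have hG := scG_G hD F
  have hr := (scG hD F).range_θ hG
  set θ : D.SteinbergCover F →* ↥(D.group F) :=
    (scG hD F).θ.codRestrict (D.group F) (fun g => by rw [← hr]; exact ⟨g, rfl⟩) with hθ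
  have hker : θ.ker = (scG hD F).θ.ker := MonoidHom.ker_codRestrict _ _ _
  have hs : Function.Surjective θ := by
    rintro ⟨g, hg⟩
    rw [← hr] at hg
    obtain ⟨x, rfl⟩ := hg
    exact ⟨x, rfl⟩
  have hfk : Finite θ.ker := by
    rw [hker, St.ker_eq ((scG hD F).R3_of_finite hG) hG]
    exact Set.Finite.image _ (Set.toFinite _)
  have hfin : Finite (D.SteinbergCover F) := by
    have e1 := Subgroup.groupEquivQuotientProdSubgroup (s := θ.ker)
    have e2 := QuotientGroup.quotientKerEquivOfSurjective θ hs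
    have : Finite (D.SteinbergCover F ⧸ θ.ker) := Finite.of_equiv _ e2.symm.toEquiv
    exact Finite.of_equiv _ e1.symm
  refine schur_of_universal θ hs (hker ▸ (scG hD F).ker_le_center hG) hp ?_ ((MulEquiv.subgroupCongr hker).trans e)
  intro Γ _ σ hσ hc
  obtain ⟨τ, hτ⟩ := hU Γ σ hσ hc
  refine ⟨τ, ?_⟩
  apply PresentedGroup.ext
  rintro ⟨r, t⟩
  have e1 : (PresentedGroup.of (⟨r, t⟩ : Fin D.nroots × F) : D.SteinbergCover F) = D.scGen F r.val t := by
    unfold scGen stX
    rw [dif_pos r.2]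
    rfl
  rw [e1, MonoidHom.comp_apply, hτ _ _ r.2]
  apply Subtype.ext
  exact ((scG hD F).θX r.val r.2 t).symm

end Cfsg.Agent.Lib.Helper23To
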