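import Mathlib
import Cfsg.Agent.Lib.Helper44ODefs

set_option autoImplicit false

/-! PROJECT 46, piece `torus`. -/

namespace Cfsg.Agent.Lib.Helper24Otorus

open Matrix Cfsg Cfsg.Agent.Lib.Helper44Wt Cfsg.Agent.Lib.Helper44Lam
  Cfsg.Agent.Lib.Helper44SLDefs Cfsg.Agent.Lib.Helper44ODefs

variable {F : Type*} [Field F] [Fintype F] [DecidableEq F]

theorem exists_a (hq : 3 < Fintype.card F) : ∃ a : F, a ≠ 0 ∧ a ^ 2 ≠ 1 := by
  by_contra h
  push Not at h
  have h1 : (Finset.univ : Finset F) ⊆ {0, 1, -1} := by
    intro a _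
    by_cases ha : a = 0
    · simp [ha]
    · have h2 := h a ha
      rw [pow_two, mul_self_eq_one_iff] at h2
      rcases h2 with h2 | h2 <;> simp [h2]
  have h2 := Finset.card_le_card h1
  have h3 : ({0, 1, -1} : Finset F).card ≤ 3 := Finset.card_le_three
  rw [Finset.card_univ] at h2
  omega

omit [Fintype F] [DecidableEq F] in
theorem single_eq (k : ℕ) (s : F) :
    (Matrix.single 0 1 s : Matrix (Fin (k + 2)) (Fin (k + 2)) F) = vecMulVec (ee 0) (s • ee 1) := by
  ext i j
  simp only [Matrix.single_apply, vecMulVec_apply, ee, Pi.smul_apply, Pi.single_apply, smul_eq_mul]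
  by_cases hi : i = 0 <;> by_cases hj : j = 1 <;> simp [hi, hj, eq_comm]

omit [Fintype F] [DecidableEq F] in
/-- the general construction -/
theorem torus_of (k : ℕ) (C H : Matrix (Fin (k + 2)) (Fin (k + 2)) F) (b : F) (hb : b ≠ 0)
    (hdet : H.det = b ^ 2) (α β c : F) (h0 : H *ᵥ ee 0 = α • ee 0) (h1 : Hᵀ *ᵥ ee 1 = β • ee 1)
    (hαβ : α = c * β) (hc : c ≠ 1) (hC : Hᵀ * C * H = C) :
    ∃ (h : sqGL (k + 2) F) (c : F), c ≠ 1 ∧ (mt h)ᵀ * C * mt h = C ∧
      ∀ s : F, h * slToSq (k + 2) F (x01 k F (Multiplicative.ofAdd s)) =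
        slToSq (k + 2) F (x01 k F (Multiplicative.ofAdd (c * s))) * h := by
  have hdet0 : H.det ≠ 0 := by rw [hdet]; exact pow_ne_zero _ hb
  refine ⟨⟨Matrix.GeneralLinearGroup.mkOfDetNeZero H hdet0, ⟨Units.mk0 b hb, ?_⟩⟩, c, hc, hC, ?_⟩
  · apply Units.ext
    simp [hdet]
  · intro s
    apply Subtype.ext
    apply Units.ext
    show H * Matrix.transvection 0 1 s = Matrix.transvection 0 1 (c * s) * H
    rw [Matrix.transvection, Matrix.transvection, Matrix.mul_add, Matrix.add_mul, Matrix.mul_one,
      Matrix.one_mul, single_eq, single_eq, Matrix.mul_vecMulVec, Matrix.vecMulVec_mul, h0,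
      ← Matrix.mulVec_transpose, Matrix.mulVec_smul, h1, hαβ]
    congr 1
    ext i j
    simp only [vecMulVec_apply, Pi.smul_apply, smul_eq_mul]
    ring

omit [Fintype F] [DecidableEq F] in
theorem prod_d (k : ℕ) (x y : F) :
    ∏ i : Fin (k + 2), (if i = 0 then x else if i = 1 then y else 1) = x * y := by
  rw [Fin.prod_univ_succ, Fin.prod_univ_succ]
  have : ∀ i : Fin k, (if (i.succ.succ : Fin (k + 2)) = 0 then x
      else if (i.succ.succ : Fin (k + 2)) = 1 then y else 1) = 1 := by
    intro i
    rw [if_neg (Fin.succ_ne_zero _), if_neg]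
    intro h
    have := congrArg Fin.val h
    simp at this
  simp only [this, Finset.prod_const_one, mul_one]
  have h1 : (Fin.succ (0 : Fin (k + 1)) : Fin (k + 2)) = 1 := rfl
  rw [h1]
  simp

theorem exists_torus (k : ℕ) (hq : 3 < Fintype.card F)
    (C : Matrix (Fin (k + 2)) (Fin (k + 2)) F) (hC : C ∈ O2)
    (hfix : alt (C *ᵥ ee 0) (ee 1) = 0) :
    ∃ (h : sqGL (k + 2) F) (c : F), c ≠ 1 ∧ (mt h)ᵀ * C * mt h = C ∧
      ∀ s : F, h * slToSq (k + 2) F (x01 k F (Multiplicative.ofAdd s)) =
        slToSq (k + 2) F (x01 k F (Multiplicative.ofAdd (c * s))) * h := by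
  obtain ⟨a, ha0, ha1⟩ := exists_a hq
  obtain ⟨u, v, -, rfl⟩ := hC
  have h01 : (0 : Fin (k + 2)) ≠ 1 := Fin.zero_ne_one
  -- the column `C e₀`
  have hw : ∀ i, (alt u v *ᵥ ee 0) i = alt u v i 0 := by
    intro i
    simp [ee]
  have hwi : ∀ i, i ≠ 1 → alt u v i 0 = 0 := by
    intro i hi
    have := congrFun (congrFun hfix i) 1
    rw [alt_apply, hw, hw] at this
    simpa [ee, hi] using this
  have hskew : ∀ i j, alt u v i j = - alt u v j i := by
    intro i j
    rw [alt_apply, alt_apply]; ring
  by_cases hc' : alt u v 1 0 = 0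
  · -- the column vanishes
    have hcol : ∀ i, alt u v i 0 = 0 := by
      intro i
      by_cases hi : i = 1
      · rw [hi, hc']
      · exact hwi i hi
    refine torus_of k _ (Matrix.diagonal (fun i => if i = 0 then a ^ 2 else if i = 1 then 1 else 1))
      a ha0 ?_ (a ^ 2) 1 (a ^ 2) ?_ ?_ (by ring) ha1 ?_
    · rw [Matrix.det_diagonal, prod_d]; ring
    · ext i
      rw [Matrix.mulVec_diagonal]
      by_cases hi : i = 0 <;> simp [ee, hi]
    · ext i
      rw [Matrix.diagonal_transpose, Matrix.mulVec_diagonal]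
      by_cases hi : i = 1
      · simp [ee, hi]
      · simp [ee, hi]
    · ext i j
      rw [Matrix.diagonal_transpose, Matrix.mul_diagonal, Matrix.diagonal_mul]
      by_cases hi : i = 0
      · subst hi
        rw [hskew, hcol]; simp
      · by_cases hj : j = 0
        · subst hj
          rw [hcol]; simp
        · simp [hi, hj]
  · -- the column is a nonzero multiple of `e₁`
    set c' := alt u v 1 0 with hc'def
    set ψ : Fin (k + 2) → F := fun j => alt u v 1 j / c' with hψ
    have hψ0 : ψ 0 = 1 := by simp only [hψ]; exact div_self hc'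
    have hψ1 : ψ 1 = 0 := by simp only [hψ]; rw [alt_apply]; ring
    have hCeq : alt u v = alt (c' • ee 1) ψ := by
      ext i j
      rw [alt_apply (c' • ee 1) ψ]
      simp only [hψ, Pi.smul_apply, smul_eq_mul, ee, Pi.single_apply]
      by_cases hi : i = 1
      · subst hi
        by_cases hj : j = 1
        · subst hj
          rw [alt_apply]; simp; ring
        · simp only [if_true, if_neg hj]
          field_simp
          ring
      · by_cases hj : j = 1
        · subst hj
          simp only [if_true, if_neg hi]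
          rw [hskew i 1]
          field_simp
          ring
        · simp only [if_neg hi, if_neg hj]
          have e1 := hwi i hi
          have e2 := hwi j hj
          rw [alt_apply] at e1 e2
          have e3 : u 0 * alt u v i j = 0 := by
            rw [alt_apply]; linear_combination (-u i) * e2 + u j * e1
          have e4 : v 0 * alt u v i j = 0 := by
            rw [alt_apply]; linear_combination (v j) * e1 - v i * e2
          by_cases hu0 : u 0 = 0
          · by_cases hv0 : v 0 = 0
            · exfalso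
              apply hc'
              rw [hc'def, alt_apply, hu0, hv0]; ring
            · rw [(mul_eq_zero.1 e4).resolve_left hv0]; ring
          · rw [(mul_eq_zero.1 e3).resolve_left hu0]; ring
    set φ : Fin (k + 2) → F := fun j => if j = 0 then 0 else if j = 1 then 0 else ψ j with hφ
    set d : Fin (k + 2) → F := fun i => if i = 0 then a else if i = 1 then a⁻¹ else 1 with hd
    have hT : ∀ x : Fin (k + 2) → F, ∀ i,
        ((Matrix.diagonal d + vecMulVec ((a - 1) • ee 0) φ)ᵀ *ᵥ x) i =
          d i * x i + (a - 1) * x 0 * φ i := by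
      intro x i
      rw [Matrix.transpose_add, Matrix.diagonal_transpose, Matrix.transpose_vecMulVec,
        Matrix.add_mulVec, Pi.add_apply, Matrix.mulVec_diagonal, Matrix.vecMulVec_mulVec]
      simp [ee]
      ring
    rw [hCeq]
    refine torus_of k _ (Matrix.diagonal d + vecMulVec ((a - 1) • ee 0) φ)
      1 one_ne_zero ?_ a a⁻¹ (a ^ 2) ?_ ?_ (by field_simp) ha1 ?_
    · have e1 : Matrix.diagonal d + vecMulVec ((a - 1) • ee 0) φ =
          (1 + vecMulVec ((a - 1) • ee 0) φ) * Matrix.diagonal d := by
        rw [Matrix.add_mul, Matrix.one_mul, Matrix.vecMulVec_mul]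
        congr 2
        ext j
        rw [Matrix.vecMul_diagonal]
        simp only [hφ, hd]
        by_cases hj0 : j = 0
        · simp [hj0]
        · by_cases hj1 : j = 1
          · simp [hj1]
          · simp [hj0, hj1]
      rw [e1, Matrix.det_mul, Matrix.det_diagonal, prod_d, Matrix.vecMulVec_eq Unit,
        Matrix.det_one_add_replicateCol_mul_replicateRow]
      simp [hφ, ee, ha0]
    · ext i
      rw [Matrix.add_mulVec, Pi.add_apply, Matrix.mulVec_diagonal, Matrix.vecMulVec_mulVec]
      by_cases hi : i = 0 <;> simp [ee, hi, hφ, hd]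
    · ext i
      rw [hT]
      by_cases hi : i = 1
      · subst hi
        simp [ee, hd, hφ, h01.symm]
      · simp [ee, hi, h01]
    · rw [alt_congr']
      have e1 : (Matrix.diagonal d + vecMulVec ((a - 1) • ee 0) φ)ᵀ *ᵥ (c' • ee 1) =
          (a⁻¹ * c') • ee 1 := by
        ext i
        rw [hT]
        by_cases hi : i = 1
        · subst hi
          simp [ee, hd, hφ, h01.symm]
        · simp [ee, hi, h01]
      have e2 : (Matrix.diagonal d + vecMulVec ((a - 1) • ee 0) φ)ᵀ *ᵥ ψ = a • ψ := by
        ext i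
        rw [hT, hψ0]
        by_cases hi0 : i = 0
        · subst hi0
          simp [hd, hφ, hψ0]
        · by_cases hi1 : i = 1
          · subst hi1
            simp [hd, hφ, hψ1]
          · simp only [hd, hφ, if_neg hi0, if_neg hi1, Pi.smul_apply, smul_eq_mul]
            ring
      rw [e1, e2]
      ext i j
      rw [alt_apply, alt_apply]
      simp only [Pi.smul_apply, smul_eq_mul]
      field_simp

end Cfsg.Agent.Lib.Helper24Otorus
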