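import Mathlib
import Cfsg.Agent.Lib.Helper44ODefs
import Cfsg.Agent.Lib.H12RSLMove

set_option autoImplicit false

/-! PROJECT 46, pieces `slfix` and `slfib`. -/

namespace Cfsg.Agent.Lib.Helper30Oslfix

open Matrix Cfsg Cfsg.Agent.Lib.Helper44Wt Cfsg.Agent.Lib.Helper44Lam
  Cfsg.Agent.Lib.Helper44SLDefs Cfsg.Agent.Lib.Helper44ODefs
  Cfsg.Agent.Lib.H12RSLDefs Cfsg.Agent.Lib.H12RSLMove

variable {F : Type*} [Field F]

theorem ee_ne_zero {N : ℕ} (i : Fin N) : (ee i : Fin N → F) ≠ 0 := by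
  intro h
  have := congrFun h i
  simp [ee] at this

theorem inv_mulVec_of {N : ℕ} (g : Matrix.SpecialLinearGroup (Fin N) F) {x y : Fin N → F}
    (h : (g : Matrix (Fin N) (Fin N) F) *ᵥ x = y) :
    ((g⁻¹ : Matrix.SpecialLinearGroup (Fin N) F) : Matrix (Fin N) (Fin N) F) *ᵥ y = x := by
  rw [← h, Matrix.mulVec_mulVec, ← Matrix.SpecialLinearGroup.coe_mul, inv_mul_cancel]
  simp

theorem alt_dot {N : ℕ} (C : Matrix (Fin N) (Fin N) F) (hC : IsAltM C) (x : Fin N → F) :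
    (C *ᵥ x) ⬝ᵥ x = 0 := by
  have hskew : ∀ i j, C j i = - C i j := by
    intro i j
    have := congrFun (congrFun hC.1 i) j
    simpa using this
  have e1 : (C *ᵥ x) ⬝ᵥ x = ∑ p : Fin N × Fin N, C p.1 p.2 * x p.2 * x p.1 := by
    rw [Fintype.sum_prod_type]
    simp only [dotProduct, Matrix.mulVec, Finset.sum_mul]
  rw [e1]
  refine Finset.sum_involution (fun p _ => (p.2, p.1)) ?_ ?_ ?_ ?_
  · rintro ⟨i, j⟩ _
    simp only
    rw [hskew i j]; ring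
  · rintro ⟨i, j⟩ _ hne heq
    simp only [Prod.mk.injEq] at heq
    obtain ⟨rfl, -⟩ := heq
    apply hne
    simp [hC.2]
  · intro p _; exact Finset.mem_univ _
  · rintro ⟨i, j⟩ _; rfl

theorem exists_SL_fix (k : ℕ) (hk : 1 ≤ k) (y : Fin (k + 2) → F) (hy : y ≠ 0) (hy0 : y 0 = 0) :
    ∃ A : Matrix.SpecialLinearGroup (Fin (k + 2)) F,
      (A : Matrix (Fin (k + 2)) (Fin (k + 2)) F) *ᵥ ee 0 = ee 0 ∧
      (A : Matrix (Fin (k + 2)) (Fin (k + 2)) F)ᵀ *ᵥ ee 1 = y := by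
  have h1 : Inc (ee 0 : Fin (k + 2) → F) (ee 1) :=
    ⟨ee_ne_zero 0, ee_ne_zero 1, by simp [ee]⟩
  have h2 : Inc (ee 0 : Fin (k + 2) → F) y :=
    ⟨ee_ne_zero 0, hy, by simp [ee, hy0]⟩
  obtain ⟨g, hg1, hg2⟩ := exists_move (by omega) h1 h2
  refine ⟨g⁻¹, inv_mulVec_of g hg1, ?_⟩
  rw [Matrix.mulVec_transpose]
  exact hg2

theorem exists_SL_fib (k : ℕ) (hk : 1 ≤ k) (C : Matrix (Fin (k + 2)) (Fin (k + 2)) F)
    (hC : IsAltM C) (h0 : C ≠ 0) :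
    ∃ A : Matrix.SpecialLinearGroup (Fin (k + 2)) F,
      ((A : Matrix (Fin (k + 2)) (Fin (k + 2)) F)ᵀ * C *
        (A : Matrix (Fin (k + 2)) (Fin (k + 2)) F)) *ᵥ ee 0 = ee 1 := by
  -- a vector not killed by `C`
  obtain ⟨x, hx⟩ : ∃ x : Fin (k + 2) → F, C *ᵥ x ≠ 0 := by
    by_contra hcon
    push Not at hcon
    apply h0
    ext i j
    have := congrFun (hcon (Pi.single j 1)) i
    simpa using this
  have hx0 : x ≠ 0 := by
    rintro rfl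
    simp at hx
  -- `xᵀ C x = 0`
  have halt : (C *ᵥ x) ⬝ᵥ x = 0 := alt_dot C hC x
  have h1 : Inc x (C *ᵥ x) := ⟨hx0, hx, halt⟩
  have h2 : Inc (ee 0 : Fin (k + 2) → F) (ee 1) :=
    ⟨ee_ne_zero 0, ee_ne_zero 1, by simp [ee]⟩
  obtain ⟨g, hg1, hg2⟩ := exists_move (by omega) h1 h2
  refine ⟨g⁻¹, ?_⟩
  rw [← Matrix.mulVec_mulVec, ← Matrix.mulVec_mulVec, inv_mulVec_of g hg1, Matrix.mulVec_transpose]
  exact hg2

end Cfsg.Agent.Lib.Helper30Oslfix
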