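import Mathlib
import Cfsg.Agent.Lib.Helper44ODefs
import Cfsg.Agent.Lib.Helper30Oslfix

set_option autoImplicit false

/-! PROJECT 46, piece `wtot`. -/

namespace Cfsg.Agent.Lib.Helper24Owtot

open Matrix Cfsg Cfsg.Agent.Lib.Helper44Wt Cfsg.Agent.Lib.Helper44Lam
  Cfsg.Agent.Lib.Helper44SLDefs Cfsg.Agent.Lib.Helper44ODefs

variable {F : Type*} [Field F] [Fintype F] [DecidableEq F]

/-- the number of nonzero vectors with vanishing first coordinate -/
theorem card_Y (k : ℕ) :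
    (Finset.univ.filter (fun y : Fin (k + 2) → F => y ≠ 0 ∧ y 0 = 0)).card =
      Fintype.card F ^ (k + 1) - 1 := by
  have h1 : (Finset.univ.filter (fun y : Fin (k + 2) → F => y ≠ 0 ∧ y 0 = 0)).card =
      (Finset.univ.filter (fun z : Fin (k + 1) → F => z ≠ 0)).card := by
    symm
    apply Finset.card_bij (fun z _ => (Fin.cons 0 z : Fin (k + 2) → F))
    · intro z hz
      simp only [Finset.mem_filter, Finset.mem_univ, true_and] at hz ⊢
      refine ⟨?_, by simp⟩
      intro h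
      apply hz
      funext i
      have := congrFun h i.succ
      simpa using this
    · intro z _ z' _ h
      funext i
      have := congrFun h i.succ
      simpa using this
    · intro y hy
      simp only [Finset.mem_filter, Finset.mem_univ, true_and] at hy
      refine ⟨fun i => y i.succ, ?_, ?_⟩
      · simp only [Finset.mem_filter, Finset.mem_univ, true_and]
        intro h
        apply hy.1
        funext i
        refine Fin.cases ?_ (fun j => ?_) i
        · exact hy.2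
        · exact congrFun h j
      · funext i
        refine Fin.cases ?_ (fun j => ?_) i
        · simp [hy.2]
        · simp
  rw [h1, Finset.filter_ne', Finset.card_erase_of_mem (Finset.mem_univ _), Finset.card_univ]
  simp

/-- the congruence action of an invertible matrix as a permutation of all matrices -/
def congrEquiv {n : ℕ} (A : Matrix.SpecialLinearGroup (Fin n) F) :
    Matrix (Fin n) (Fin n) F ≃ Matrix (Fin n) (Fin n) F where
  toFun C := (A : Matrix (Fin n) (Fin n) F)ᵀ * C * (A : Matrix (Fin n) (Fin n) F)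
  invFun C := ((A⁻¹ : Matrix.SpecialLinearGroup (Fin n) F) : Matrix (Fin n) (Fin n) F)ᵀ * C *
    ((A⁻¹ : Matrix.SpecialLinearGroup (Fin n) F) : Matrix (Fin n) (Fin n) F)
  left_inv C := by
    have h1 : (A : Matrix (Fin n) (Fin n) F) *
        ((A⁻¹ : Matrix.SpecialLinearGroup (Fin n) F) : Matrix (Fin n) (Fin n) F) = 1 := by
      rw [← Matrix.SpecialLinearGroup.coe_mul, mul_inv_cancel]; rfl
    calc _ = ((A : Matrix (Fin n) (Fin n) F) *
        ((A⁻¹ : Matrix.SpecialLinearGroup (Fin n) F) : Matrix (Fin n) (Fin n) F))ᵀ * C *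
        ((A : Matrix (Fin n) (Fin n) F) *
        ((A⁻¹ : Matrix.SpecialLinearGroup (Fin n) F) : Matrix (Fin n) (Fin n) F)) := by
          rw [Matrix.transpose_mul]; simp only [Matrix.mul_assoc]
      _ = C := by rw [h1]; simp
  right_inv C := by
    have h1 : ((A⁻¹ : Matrix.SpecialLinearGroup (Fin n) F) : Matrix (Fin n) (Fin n) F) *
        (A : Matrix (Fin n) (Fin n) F) = 1 := by
      rw [← Matrix.SpecialLinearGroup.coe_mul, inv_mul_cancel]; rfl
    calc _ = (((A⁻¹ : Matrix.SpecialLinearGroup (Fin n) F) : Matrix (Fin n) (Fin n) F) *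
        (A : Matrix (Fin n) (Fin n) F))ᵀ * C *
        (((A⁻¹ : Matrix.SpecialLinearGroup (Fin n) F) : Matrix (Fin n) (Fin n) F) *
        (A : Matrix (Fin n) (Fin n) F)) := by
          rw [Matrix.transpose_mul]; simp only [Matrix.mul_assoc]
      _ = C := by rw [h1]; simp

theorem transpose_mulVec_injective {n : ℕ} (A : Matrix.SpecialLinearGroup (Fin n) F) :
    Function.Injective (fun x : Fin n → F => (A : Matrix (Fin n) (Fin n) F)ᵀ *ᵥ x) := by
  intro x y h
  have h1 : (A : Matrix (Fin n) (Fin n) F) *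
      ((A⁻¹ : Matrix.SpecialLinearGroup (Fin n) F) : Matrix (Fin n) (Fin n) F) = 1 := by
    rw [← Matrix.SpecialLinearGroup.coe_mul, mul_inv_cancel]; rfl
  have h2 : ((A⁻¹ : Matrix.SpecialLinearGroup (Fin n) F) : Matrix (Fin n) (Fin n) F)ᵀ *
      (A : Matrix (Fin n) (Fin n) F)ᵀ = 1 := by
    rw [← Matrix.transpose_mul, h1, Matrix.transpose_one]
  have := congrArg
    (fun z => ((A⁻¹ : Matrix.SpecialLinearGroup (Fin n) F) : Matrix (Fin n) (Fin n) F)ᵀ *ᵥ z) h
  simp only [Matrix.mulVec_mulVec] at this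
  rw [h2] at this
  simpa using this

/-- all fibres of `C ↦ C e₀` over admissible `y` have the same weight -/
theorem fib_sum_eq (k : ℕ) (m : Matrix (Fin (k + 2)) (Fin (k + 2)) F → ℕ)
    (hinv : ∀ (A : sqGL (k + 2) F) (C : Matrix (Fin (k + 2)) (Fin (k + 2)) F),
      m ((mt A)ᵀ * C * mt A) = m C)
    (y : Fin (k + 2) → F) (A : Matrix.SpecialLinearGroup (Fin (k + 2)) F)
    (hA0 : (A : Matrix (Fin (k + 2)) (Fin (k + 2)) F) *ᵥ ee 0 = ee 0)
    (hA1 : (A : Matrix (Fin (k + 2)) (Fin (k + 2)) F)ᵀ *ᵥ ee 1 = y) :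
    (∑ C : Matrix (Fin (k + 2)) (Fin (k + 2)) F, if C *ᵥ ee 0 = ee 1 then m C else 0) =
      ∑ C : Matrix (Fin (k + 2)) (Fin (k + 2)) F, if C *ᵥ ee 0 = y then m C else 0 := by
  apply Fintype.sum_equiv (congrEquiv A)
  intro C
  have h1 : (congrEquiv A C) *ᵥ ee 0 = (A : Matrix (Fin (k + 2)) (Fin (k + 2)) F)ᵀ *ᵥ (C *ᵥ ee 0) := by
    show ((A : Matrix (Fin (k + 2)) (Fin (k + 2)) F)ᵀ * C *
      (A : Matrix (Fin (k + 2)) (Fin (k + 2)) F)) *ᵥ ee 0 = _
    rw [← Matrix.mulVec_mulVec, hA0, ← Matrix.mulVec_mulVec]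
  have h2 : m (congrEquiv A C) = m C := hinv (slToSq (k + 2) F A) C
  rw [h1, h2, ← hA1]
  by_cases h : C *ᵥ ee 0 = ee 1
  · rw [if_pos h, if_pos (by rw [h])]
  · rw [if_neg h, if_neg (fun h' => h (transpose_mulVec_injective A h'))]

/-- `W_tot`, with the piece `slfix` as a hypothesis -/
theorem W_tot_aux (k : ℕ) (m : Matrix (Fin (k + 2)) (Fin (k + 2)) F → ℕ)
    (hinv : ∀ (A : sqGL (k + 2) F) (C : Matrix (Fin (k + 2)) (Fin (k + 2)) F),
      m ((mt A)ᵀ * C * mt A) = m C)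
    (hfix : ∀ y : Fin (k + 2) → F, y ≠ 0 → y 0 = 0 →
      ∃ A : Matrix.SpecialLinearGroup (Fin (k + 2)) F,
      (A : Matrix (Fin (k + 2)) (Fin (k + 2)) F) *ᵥ ee 0 = ee 0 ∧
      (A : Matrix (Fin (k + 2)) (Fin (k + 2)) F)ᵀ *ᵥ ee 1 = y) :
    (Fintype.card F ^ (k + 1) - 1) *
      (∑ C : Matrix (Fin (k + 2)) (Fin (k + 2)) F, if C *ᵥ ee 0 = ee 1 then m C else 0) ≤
      ∑ C : Matrix (Fin (k + 2)) (Fin (k + 2)) F, if C = 0 then 0 else m C := by
  classical
  set Y := Finset.univ.filter (fun y : Fin (k + 2) → F => y ≠ 0 ∧ y 0 = 0) with hY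
  set M := ∑ C : Matrix (Fin (k + 2)) (Fin (k + 2)) F, if C *ᵥ ee 0 = ee 1 then m C else 0 with hM
  have h1 : (Fintype.card F ^ (k + 1) - 1) * M =
      ∑ y ∈ Y, ∑ C : Matrix (Fin (k + 2)) (Fin (k + 2)) F, if C *ᵥ ee 0 = y then m C else 0 := by
    rw [← card_Y k, ← smul_eq_mul, ← Finset.sum_const]
    apply Finset.sum_congr rfl
    intro y hy
    simp only [Y, Finset.mem_filter, Finset.mem_univ, true_and] at hy
    obtain ⟨A, hA0, hA1⟩ := hfix y hy.1 hy.2
    exact fib_sum_eq k m hinv y A hA0 hA1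
  rw [h1, Finset.sum_comm]
  apply Finset.sum_le_sum
  intro C _
  by_cases hC : C = 0
  · rw [if_pos hC]
    apply le_of_eq
    apply Finset.sum_eq_zero
    intro y hy
    simp only [hY, Finset.mem_filter, Finset.mem_univ, true_and] at hy
    rw [if_neg]
    intro h
    apply hy.1
    rw [← h, hC, Matrix.zero_mulVec]
  · rw [if_neg hC, Finset.sum_ite_eq]
    split_ifs <;> simp

theorem W_tot (k : ℕ) (hk : 1 ≤ k) (m : Matrix (Fin (k + 2)) (Fin (k + 2)) F → ℕ)
    (hinv : ∀ (A : sqGL (k + 2) F) (C : Matrix (Fin (k + 2)) (Fin (k + 2)) F),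
      m ((mt A)ᵀ * C * mt A) = m C) :
    (Fintype.card F ^ (k + 1) - 1) *
      (∑ C : Matrix (Fin (k + 2)) (Fin (k + 2)) F, if C *ᵥ ee 0 = ee 1 then m C else 0) ≤
      ∑ C : Matrix (Fin (k + 2)) (Fin (k + 2)) F, if C = 0 then 0 else m C :=
  W_tot_aux k m hinv (fun y hy hy0 => Cfsg.Agent.Lib.Helper30Oslfix.exists_SL_fix k hk y hy hy0)

end Cfsg.Agent.Lib.Helper24Owtot
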