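import Mathlib
import Cfsg.Agent.Lib.Helper30Oslfix

set_option autoImplicit false

/-! PROJECT 46, piece `o2fib`. -/

namespace Cfsg.Agent.Lib.Helper30Oo2fib

open Matrix Cfsg Cfsg.Agent.Lib.Helper44Wt Cfsg.Agent.Lib.Helper44Lam
  Cfsg.Agent.Lib.Helper44SLDefs Cfsg.Agent.Lib.Helper44ODefs
  Cfsg.Agent.Lib.Helper30Oslfix

variable {F : Type*} [Field F]

/-- `O2` is invariant under congruence by `SL`. -/
theorem O2_congr {N : ℕ} (B : Matrix.SpecialLinearGroup (Fin N) F) (C : Matrix (Fin N) (Fin N) F)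
    (hC : C ∈ O2) :
    (B : Matrix (Fin N) (Fin N) F)ᵀ * C * (B : Matrix (Fin N) (Fin N) F) ∈ O2 := by
  obtain ⟨u, v, hli, rfl⟩ := hC
  refine ⟨_, _, ?_, alt_congr' _ u v⟩
  rw [LinearIndependent.pair_iff] at hli ⊢
  intro s t hst
  apply hli s t
  have h1 : (B : Matrix (Fin N) (Fin N) F)ᵀ *ᵥ (s • u + t • v) = 0 := by
    rw [Matrix.mulVec_add, Matrix.mulVec_smul, Matrix.mulVec_smul]
    exact hst
  have h2 : ((B⁻¹ : Matrix.SpecialLinearGroup (Fin N) F) : Matrix (Fin N) (Fin N) F)ᵀ *ᵥ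
      ((B : Matrix (Fin N) (Fin N) F)ᵀ *ᵥ (s • u + t • v)) = s • u + t • v := by
    rw [Matrix.mulVec_mulVec, ← Matrix.transpose_mul, ← Matrix.SpecialLinearGroup.coe_mul,
      mul_inv_cancel]
    simp
  rw [← h2, h1, Matrix.mulVec_zero]

theorem congr_congr {N : ℕ} (B B' : Matrix.SpecialLinearGroup (Fin N) F) (h : B' * B = 1)
    (C : Matrix (Fin N) (Fin N) F) :
    (B : Matrix (Fin N) (Fin N) F)ᵀ * ((B' : Matrix (Fin N) (Fin N) F)ᵀ * C *
      (B' : Matrix (Fin N) (Fin N) F)) * (B : Matrix (Fin N) (Fin N) F) = C := by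
  have h1 : (B' : Matrix (Fin N) (Fin N) F) * (B : Matrix (Fin N) (Fin N) F) = 1 := by
    rw [← Matrix.SpecialLinearGroup.coe_mul, h]; rfl
  calc _ = ((B' : Matrix (Fin N) (Fin N) F) * (B : Matrix (Fin N) (Fin N) F))ᵀ * C *
      ((B' : Matrix (Fin N) (Fin N) F) * (B : Matrix (Fin N) (Fin N) F)) := by
        rw [Matrix.transpose_mul]; simp only [Matrix.mul_assoc]
    _ = C := by rw [h1]; simp

/-- the vector `(1, 0, φ)` -/
def ww {k : ℕ} (φ : Fin k → F) : Fin (k + 2) → F := Fin.cons 1 (Fin.cons 0 φ)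

theorem key_entry {k : ℕ} (u v : Fin (k + 2) → F)
    (h : alt u v *ᵥ ee 0 = ee 1) (i j : Fin (k + 2)) :
    alt u v i j = (ee 1 : Fin (k + 2) → F) i * alt u v 1 j - alt u v 1 i * (ee 1 : Fin (k + 2) → F) j := by
  have hcol : ∀ i, v 0 * u i - u 0 * v i = (ee 1 : Fin (k + 2) → F) i := by
    intro i
    have := congrFun h i
    rw [alt_mulVec] at this
    simpa [ee] using this
  have h1 := hcol 1
  have e11 : (ee 1 : Fin (k + 2) → F) 1 = 1 := by simp [ee]
  rw [e11] at h1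
  simp only [alt_apply]
  by_cases hi : i = 1
  · subst hi
    rw [e11]; ring
  · by_cases hj : j = 1
    · subst hj
      rw [e11]
      have : (ee 1 : Fin (k + 2) → F) i = 0 := by simp [ee, hi]
      rw [this]; ring
    · have ei : (ee 1 : Fin (k + 2) → F) i = 0 := by simp [ee, hi]
      have ej : (ee 1 : Fin (k + 2) → F) j = 0 := by simp [ee, hj]
      have hi' := hcol i
      have hj' := hcol j
      rw [ei] at hi' ⊢
      rw [ej] at hj' ⊢
      have : u i * v j - v i * u j = (v 0 * u 1 - u 0 * v 1) * (u i * v j - v i * u j) := by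
        rw [h1, one_mul]
      rw [this]
      linear_combination (u 1 * v j - v 1 * u j) * hi' - (u 1 * v i - v 1 * u i) * hj'

/-- the fibre over `e₁`. -/
noncomputable def fibEquiv (k : ℕ) :
    (Fin k → F) ≃ {C : Matrix (Fin (k + 2)) (Fin (k + 2)) F // C ∈ O2 ∧ C *ᵥ ee 0 = ee 1} where
  toFun φ := ⟨alt (ee 1) (ww φ), by
    refine ⟨⟨ee 1, ww φ, ?_, rfl⟩, ?_⟩
    · rw [LinearIndependent.pair_iff]
      intro s t hst
      have h0 := congrFun hst 0
      have h1 := congrFun hst 1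
      have e1 : (1 : Fin (k + 2)) = Fin.succ 0 := rfl
      simp [ee, ww] at h0
      simp [ee, ww, h0] at h1
      exact ⟨h1, h0⟩
    · rw [alt_mulVec]
      simp [ee, ww]⟩
  invFun C := fun j => C.1 1 j.succ.succ
  left_inv φ := by
    funext j
    have hne : (1 : Fin (k + 2)) ≠ j.succ.succ := by
      intro h
      have := congrArg Fin.val h
      simp at this
    simp [alt_apply, ee, ww, hne]
  right_inv C := by
    obtain ⟨C, ⟨u, v, hli, rfl⟩, h⟩ := C
    apply Subtype.ext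
    ext i j
    simp only
    rw [key_entry u v h i j, alt_apply]
    have hw : ww (fun j : Fin k => alt u v 1 j.succ.succ) = fun j => alt u v 1 j := by
      funext j
      refine Fin.cases ?_ (fun j => ?_) j
      · have := congrFun h 1
        have e2 : (alt u v *ᵥ ee 0) 1 = alt u v 1 0 := by
          simp [ee]
        rw [e2] at this
        simp [ww, this, ee]
      · refine Fin.cases ?_ (fun j => ?_) j
        · simp [ww, alt_apply]
          ring
        · simp [ww]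
    rw [hw]

theorem O2_fib [Fintype F] (k : ℕ) (hk : 1 ≤ k) (y : Fin (k + 2) → F) (hy : y ≠ 0) (hy0 : y 0 = 0) :
    Nat.card {C : Matrix (Fin (k + 2)) (Fin (k + 2)) F // C ∈ O2 ∧ C *ᵥ ee 0 = y} =
      Fintype.card F ^ k := by
  obtain ⟨A, hA0, hA1⟩ := exists_SL_fix k hk y hy hy0
  have hAi : ((A⁻¹ : Matrix.SpecialLinearGroup (Fin (k + 2)) F) :
      Matrix (Fin (k + 2)) (Fin (k + 2)) F) *ᵥ ee 0 = ee 0 := inv_mulVec_of A hA0
  have hAi1 : ((A⁻¹ : Matrix.SpecialLinearGroup (Fin (k + 2)) F) :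
      Matrix (Fin (k + 2)) (Fin (k + 2)) F)ᵀ *ᵥ y = ee 1 := by
    rw [← hA1, Matrix.mulVec_mulVec, ← Matrix.transpose_mul, ← Matrix.SpecialLinearGroup.coe_mul,
      mul_inv_cancel]
    simp
  let e : {C : Matrix (Fin (k + 2)) (Fin (k + 2)) F // C ∈ O2 ∧ C *ᵥ ee 0 = ee 1} ≃
      {C : Matrix (Fin (k + 2)) (Fin (k + 2)) F // C ∈ O2 ∧ C *ᵥ ee 0 = y} :=
    { toFun := fun C => ⟨(A : Matrix (Fin (k + 2)) (Fin (k + 2)) F)ᵀ * C.1 *
        (A : Matrix (Fin (k + 2)) (Fin (k + 2)) F), O2_congr A C.1 C.2.1, by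
          rw [← Matrix.mulVec_mulVec, ← Matrix.mulVec_mulVec, hA0, C.2.2, hA1]⟩
      invFun := fun C => ⟨((A⁻¹ : Matrix.SpecialLinearGroup (Fin (k + 2)) F) :
        Matrix (Fin (k + 2)) (Fin (k + 2)) F)ᵀ * C.1 *
        ((A⁻¹ : Matrix.SpecialLinearGroup (Fin (k + 2)) F) :
        Matrix (Fin (k + 2)) (Fin (k + 2)) F), O2_congr A⁻¹ C.1 C.2.1, by
          rw [← Matrix.mulVec_mulVec, ← Matrix.mulVec_mulVec, hAi, C.2.2, hAi1]⟩
      left_inv := fun C => Subtype.ext (congr_congr A⁻¹ A (mul_inv_cancel A) C.1)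
      right_inv := fun C => Subtype.ext (congr_congr A A⁻¹ (inv_mul_cancel A) C.1) }
  rw [← Nat.card_congr e, ← Nat.card_congr (fibEquiv k), Nat.card_eq_fintype_card]
  simp

end Cfsg.Agent.Lib.Helper30Oo2fib
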