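import Mathlib
import Cfsg.Agent.Lib.Helper30Oslfix

set_option autoImplicit false

/-! PROJECT 46, piece `o2trans`. -/

namespace Cfsg.Agent.Lib.Helper30Oo2trans

open Matrix Cfsg Cfsg.Agent.Lib.Helper44Wt Cfsg.Agent.Lib.Helper44Lam
  Cfsg.Agent.Lib.Helper44SLDefs Cfsg.Agent.Lib.Helper44ODefs
  Cfsg.Agent.Lib.H12RSLDefs Cfsg.Agent.Lib.H12RSLMove Cfsg.Agent.Lib.H12RSLDual
  Cfsg.Agent.Lib.Helper30Oslfix

variable {F : Type*} [Field F]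

/-- `alt e₁ w` with `w 0 = 1` is `SL`-congruent to `C0`. -/
theorem alt_e1 (k : ℕ) (w : Fin (k + 2) → F) (hw : w 0 = 1) :
    ∃ A : Matrix.SpecialLinearGroup (Fin (k + 2)) F,
      alt (ee 1) w = (A : Matrix (Fin (k + 2)) (Fin (k + 2)) F)ᵀ * C0 k F *
        (A : Matrix (Fin (k + 2)) (Fin (k + 2)) F) := by
  set φ : Fin (k + 2) → F := w - ee 0 with hφ
  have hφ0 : φ ⬝ᵥ (ee 0 : Fin (k + 2) → F) = 0 := by
    simp [hφ, ee, hw]
  refine ⟨tvS (ee 0) φ 1, ?_⟩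
  unfold C0
  rw [alt_congr', Matrix.mulVec_transpose, Matrix.mulVec_transpose, tvS_vecMul hφ0, tvS_vecMul hφ0]
  have h1 : (ee 1 : Fin (k + 2) → F) ⬝ᵥ ee 0 = 0 := by simp [ee]
  have h2 : (ee 0 : Fin (k + 2) → F) ⬝ᵥ ee 0 = 1 := by simp [ee]
  rw [h1, h2]
  simp [hφ]

theorem O2_trans (k : ℕ) (hk : 1 ≤ k) (C : Matrix (Fin (k + 2)) (Fin (k + 2)) F) (hC : C ∈ O2) :
    ∃ A : Matrix.SpecialLinearGroup (Fin (k + 2)) F,
      C = (A : Matrix (Fin (k + 2)) (Fin (k + 2)) F)ᵀ * C0 k F *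
        (A : Matrix (Fin (k + 2)) (Fin (k + 2)) F) := by
  obtain ⟨u, v, hli, rfl⟩ := hC
  have hu : u ≠ 0 := by
    have := hli.ne_zero 0
    simpa using this
  have hv : ∀ a : F, v ≠ a • u := by
    intro a ha
    rw [LinearIndependent.pair_iff] at hli
    have := hli a (-1) (by rw [ha]; simp)
    simp at this
  -- a vector `p` with `u p = 0`, `v p = 1`
  obtain ⟨p, hp1, hp2⟩ := exists_dot_pair hu hv 0 1
  have hp0 : p ≠ 0 := by
    rintro rfl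
    simp at hp2
  have h1 : Inc p u := ⟨hp0, hu, by rw [dotProduct_comm]; exact hp1⟩
  have h2 : Inc (ee 0 : Fin (k + 2) → F) (ee 1) :=
    ⟨ee_ne_zero 0, ee_ne_zero 1, by simp [ee]⟩
  obtain ⟨g, hg1, hg2⟩ := exists_move (by omega) h1 h2
  set w := v ᵥ* ((g⁻¹ : Matrix.SpecialLinearGroup (Fin (k + 2)) F) :
    Matrix (Fin (k + 2)) (Fin (k + 2)) F) with hw
  have hw0 : w 0 = 1 := by
    have e : w 0 = w ⬝ᵥ ee 0 := by simp [ee]
    rw [e, hw, ← Matrix.dotProduct_mulVec, inv_mulVec_of g hg1, dotProduct_comm]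
    exact hp2
  obtain ⟨A, hA⟩ := alt_e1 k w hw0
  refine ⟨A * g, ?_⟩
  rw [Matrix.SpecialLinearGroup.coe_mul, Matrix.transpose_mul]
  have e : (g : Matrix (Fin (k + 2)) (Fin (k + 2)) F)ᵀ *
      (A : Matrix (Fin (k + 2)) (Fin (k + 2)) F)ᵀ * C0 k F *
      ((A : Matrix (Fin (k + 2)) (Fin (k + 2)) F) * (g : Matrix (Fin (k + 2)) (Fin (k + 2)) F)) =
      (g : Matrix (Fin (k + 2)) (Fin (k + 2)) F)ᵀ *
      ((A : Matrix (Fin (k + 2)) (Fin (k + 2)) F)ᵀ * C0 k F *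
      (A : Matrix (Fin (k + 2)) (Fin (k + 2)) F)) * (g : Matrix (Fin (k + 2)) (Fin (k + 2)) F) := by
    simp only [Matrix.mul_assoc]
  rw [e, ← hA, alt_congr', Matrix.mulVec_transpose, Matrix.mulVec_transpose, ← hg2, hw,
    Matrix.vecMul_vecMul, Matrix.vecMul_vecMul, ← Matrix.SpecialLinearGroup.coe_mul, inv_mul_cancel]
  simp

end Cfsg.Agent.Lib.Helper30Oo2trans
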