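import Mathlib
import Cfsg.Agent.Lib.Helper44ODefs

set_option autoImplicit false

namespace Cfsg.Agent.Lib.Helper78Owfib1

open Matrix Cfsg Cfsg.Agent.Lib.Helper44Wt Cfsg.Agent.Lib.Helper44Lam
  Cfsg.Agent.Lib.Helper44SLDefs Cfsg.Agent.Lib.Helper44ODefs

variable {F : Type*} [Field F] [Fintype F] [DecidableEq F]

/-- extension of a vector by two zero coordinates -/
def ext2 {k : ℕ} (φ : Fin k → F) : Fin (k + 2) → F :=
  Fin.cons (0 : F) (Fin.cons (0 : F) φ : Fin (k + 1) → F)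

omit [Fintype F] [DecidableEq F] in
theorem ext2_zero {k : ℕ} (φ : Fin k → F) : ext2 φ 0 = 0 := rfl

omit [Fintype F] [DecidableEq F] in
theorem ext2_one {k : ℕ} (φ : Fin k → F) : ext2 φ 1 = 0 := rfl

omit [Fintype F] [DecidableEq F] in
theorem ext2_succ {k : ℕ} (φ : Fin k → F) (j : Fin k) : ext2 φ j.succ.succ = φ j := rfl

omit [Fintype F] [DecidableEq F] in
theorem det_one_add_vmv {n : ℕ} (u v : Fin n → F) :
    (1 + vecMulVec u v).det = 1 + v ⬝ᵥ u := by
  rw [Matrix.vecMulVec_eq Unit]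
  exact Matrix.det_one_add_replicateCol_mul_replicateRow u v

/-- the transvection `1 + e₀ φᵀ` (with `φ₀ = 0`) -/
def tv {k : ℕ} (φ : Fin (k + 2) → F) (h0 : φ 0 = 0) :
    Matrix.SpecialLinearGroup (Fin (k + 2)) F :=
  ⟨1 + vecMulVec (ee 0) φ, by
    rw [det_one_add_vmv]
    simp [ee, h0]⟩

omit [Fintype F] [DecidableEq F] in
theorem tv_congr {k : ℕ} (φ : Fin (k + 2) → F) (h0 : φ 0 = 0) :
    (tv φ h0 : Matrix (Fin (k + 2)) (Fin (k + 2)) F)ᵀ * C0 k F *
      (tv φ h0 : Matrix (Fin (k + 2)) (Fin (k + 2)) F) = alt (ee 1) (ee 0 + φ) := by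
  rw [C0, alt_congr']
  have hT : (tv φ h0 : Matrix (Fin (k + 2)) (Fin (k + 2)) F)ᵀ = 1 + vecMulVec φ (ee 0) := by
    show (1 + vecMulVec (ee 0) φ)ᵀ = _
    rw [Matrix.transpose_add, Matrix.transpose_one, Matrix.transpose_vecMulVec]
  rw [hT, Matrix.add_mulVec, Matrix.add_mulVec, Matrix.one_mulVec, Matrix.one_mulVec,
    Matrix.vecMulVec_mulVec, Matrix.vecMulVec_mulVec]
  have e1 : (ee 0 : Fin (k + 2) → F) ⬝ᵥ ee 1 = 0 := by
    simp [ee]
  have e2 : (ee 0 : Fin (k + 2) → F) ⬝ᵥ ee 0 = 1 := by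
    simp [ee]
  rw [e1, e2]
  simp

theorem W_fib1 (k : ℕ) (m : Matrix (Fin (k + 2)) (Fin (k + 2)) F → ℕ)
    (hinv : ∀ (A : sqGL (k + 2) F) (C : Matrix (Fin (k + 2)) (Fin (k + 2)) F),
      m ((mt A)ᵀ * C * mt A) = m C) :
    Fintype.card F ^ k * m (C0 k F) ≤
      ∑ C : Matrix (Fin (k + 2)) (Fin (k + 2)) F, if C *ᵥ ee 0 = ee 1 then m C else 0 := by
  classical
  set f : (Fin k → F) → Matrix (Fin (k + 2)) (Fin (k + 2)) F :=
    fun φ => alt (ee 1) (ee 0 + ext2 φ) with hf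
  have hinj : Function.Injective f := by
    intro φ φ' h
    funext j
    have := congrFun (congrFun h 1) j.succ.succ
    simp only [hf, alt_apply, Pi.add_apply, ext2_succ, ext2_one] at this
    have a1 : (ee 1 : Fin (k + 2) → F) 1 = 1 := by simp [ee]
    have a2 : (ee 0 : Fin (k + 2) → F) 1 = 0 := by simp [ee]
    have a3 : (ee 0 : Fin (k + 2) → F) j.succ.succ = 0 := by
      simp [ee, Fin.succ_ne_zero]
    rw [a1, a2, a3] at this
    simpa using this
  have hm : ∀ φ, m (f φ) = m (C0 k F) := by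
    intro φ
    have := hinv (slToSq (k + 2) F (tv (ext2 φ) (ext2_zero φ))) (C0 k F)
    rw [← this]
    congr 1
    exact (tv_congr (ext2 φ) (ext2_zero φ)).symm
  have hfib : ∀ φ, f φ *ᵥ ee 0 = ee 1 := by
    intro φ
    simp only [hf]
    rw [alt_mulVec]
    have e1 : (ee 1 : Fin (k + 2) → F) ⬝ᵥ ee 0 = 0 := by
      simp [ee]
    have e2 : (ee 0 + ext2 φ : Fin (k + 2) → F) ⬝ᵥ ee 0 = 1 := by
      simp [ee, ext2_zero]
    rw [e1, e2]
    simp
  calc Fintype.card F ^ k * m (C0 k F)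
      = ∑ φ : Fin k → F, m (f φ) := by
        rw [Finset.sum_congr rfl fun φ _ => hm φ, Finset.sum_const, smul_eq_mul]
        congr 1
        simp
    _ = ∑ C ∈ Finset.univ.image f, m C := by
        rw [Finset.sum_image (fun a _ b _ h => hinj h)]
    _ = ∑ C ∈ Finset.univ.image f, if C *ᵥ ee 0 = ee 1 then m C else 0 := by
        refine Finset.sum_congr rfl fun C hC => ?_
        obtain ⟨φ, _, rfl⟩ := Finset.mem_image.1 hC
        rw [if_pos (hfib φ)]
    _ ≤ _ := Finset.sum_le_sum_of_subset_of_nonneg (Finset.subset_univ _) (fun _ _ _ => Nat.zero_le _)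

end Cfsg.Agent.Lib.Helper78Owfib1
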