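import Mathlib
import Cfsg.Agent.Lib.Helper44ODefs

set_option autoImplicit false
set_option linter.unusedSimpArgs false

/-! PROJECT 46, piece `wnorm`: the key formula (K) and the normal form of the elements of the fibre
whose lower right block vanishes. -/

namespace Cfsg.Agent.Lib.Helper86Ownorm

open Matrix Cfsg Cfsg.Agent.Lib.Helper44Wt Cfsg.Agent.Lib.Helper44Lam
  Cfsg.Agent.Lib.Helper44SLDefs Cfsg.Agent.Lib.Helper44ODefs

variable {F : Type*} [Field F]

/-- the matrix `1 + e₀ φᵀ`. -/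
def shear (k : ℕ) (φ : Fin (k + 2) → F) : Matrix (Fin (k + 2)) (Fin (k + 2)) F :=
  1 + vecMulVec (ee 0) φ

theorem det_shear (k : ℕ) (φ : Fin (k + 2) → F) : (shear k φ).det = 1 + φ 0 := by
  have h := Matrix.det_one_add_replicateCol_mul_replicateRow (ι := Unit)
    (ee (0 : Fin (k + 2)) : Fin (k + 2) → F) φ
  rw [← Matrix.vecMulVec_eq] at h
  rw [shear, h]
  simp [ee]

/-- KEY FORMULA (K). -/
theorem shear_congr (k : ℕ) (C : Matrix (Fin (k + 2)) (Fin (k + 2)) F) (hC : IsAltM C)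
    (φ : Fin (k + 2) → F) :
    (shear k φ)ᵀ * C * shear k φ = C + alt (C *ᵥ ee 0) φ := by
  have h1 : vecMulVec φ (ee (0 : Fin (k + 2))) * C = - vecMulVec φ (C *ᵥ ee 0) := by
    rw [Matrix.vecMulVec_mul, ← Matrix.mulVec_transpose, hC.1, Matrix.neg_mulVec]
    ext i j
    simp [vecMulVec_apply]
  have h2 : C * vecMulVec (ee (0 : Fin (k + 2))) φ = vecMulVec (C *ᵥ ee 0) φ := by
    rw [Matrix.mul_vecMulVec]
  have h3 : vecMulVec φ (C *ᵥ ee 0) * vecMulVec (ee (0 : Fin (k + 2))) φ = 0 := by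
    rw [Matrix.vecMulVec_mul_vecMulVec]
    have : (C *ᵥ ee 0) ⬝ᵥ (ee (0 : Fin (k + 2)) : Fin (k + 2) → F) = 0 := by
      rw [ee, dotProduct_single, mul_one, Matrix.mulVec_single_one]
      exact hC.2 0
    rw [this]
    simp
  rw [shear, Matrix.transpose_add, Matrix.transpose_one, Matrix.transpose_vecMulVec,
    Matrix.add_mul, Matrix.one_mul, h1, Matrix.mul_add, Matrix.mul_one, Matrix.add_mul,
    Matrix.neg_mul, h2, h3, alt]
  abel

/-- the shear as an element of `SL`. -/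
def shearSL (k : ℕ) (φ : Fin (k + 2) → F) (h0 : φ 0 = 0) :
    Matrix.SpecialLinearGroup (Fin (k + 2)) F :=
  ⟨shear k φ, by rw [det_shear, h0, add_zero]⟩

theorem shearSL_coe (k : ℕ) (φ : Fin (k + 2) → F) (h0 : φ 0 = 0) :
    (shearSL k φ h0 : Matrix (Fin (k + 2)) (Fin (k + 2)) F) = shear k φ := rfl

theorem isAltM_alt {ι : Type*} (u v : ι → F) : IsAltM (alt u v) := by
  constructor
  · ext i j
    simp [alt_apply, Matrix.transpose_apply]
    ring
  · intro i
    rw [alt_apply]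
    ring

theorem C0_mulVec (k : ℕ) : C0 k F *ᵥ ee 0 = ee 1 := by
  rw [C0, alt_mulVec]
  have h1 : (ee (0 : Fin (k + 2)) : Fin (k + 2) → F) ⬝ᵥ ee 0 = 1 := by simp [ee]
  have h2 : (ee (1 : Fin (k + 2)) : Fin (k + 2) → F) ⬝ᵥ ee 0 = 0 := by
    simp [ee]
  rw [h1, h2]
  simp

variable [Fintype F] [DecidableEq F]

theorem W_norm (k : ℕ) (C : Matrix (Fin (k + 2)) (Fin (k + 2)) F) (hC : IsAltM C)
    (hC1 : C *ᵥ ee 0 = ee 1)
    (h : ∀ i j : Fin (k + 2), i ≠ 0 → i ≠ 1 → j ≠ 0 → j ≠ 1 → C i j = 0) :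
    ∃ A : Matrix.SpecialLinearGroup (Fin (k + 2)) F,
      C = (A : Matrix (Fin (k + 2)) (Fin (k + 2)) F)ᵀ * C0 k F *
        (A : Matrix (Fin (k + 2)) (Fin (k + 2)) F) := by
  classical
  set φ : Fin (k + 2) → F := fun j => if j = 0 ∨ j = 1 then 0 else C 1 j with hφ
  have h0 : φ 0 = 0 := by simp [hφ]
  have h1 : φ 1 = 0 := by simp [hφ]
  refine ⟨shearSL k φ h0, ?_⟩
  rw [shearSL_coe, shear_congr k (C0 k F) (isAltM_alt _ _), C0_mulVec]
  have hcol : ∀ i, C i 0 = (ee (1 : Fin (k + 2)) : Fin (k + 2) → F) i := by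
    intro i
    have := congrFun hC1 i
    rw [ee, Matrix.mulVec_single_one] at this
    exact this
  have hskew : ∀ i j, C i j = - C j i := by
    intro i j
    have := congrFun (congrFun hC.1 j) i
    simpa [Matrix.transpose_apply] using this
  have h01 : (0 : Fin (k + 2)) ≠ 1 := Fin.zero_ne_one
  ext i j
  rw [Matrix.add_apply, C0, alt_apply, alt_apply]
  by_cases hj0 : j = 0
  · subst hj0
    rw [hcol, h0]
    simp [ee, h01, h01.symm]
  by_cases hi0 : i = 0
  · subst hi0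
    rw [hskew, hcol, h0]
    simp [ee, h01, h01.symm, hj0]
  by_cases hi1 : i = 1
  · subst hi1
    by_cases hj1 : j = 1
    · subst hj1
      rw [hC.2, h1]
      simp [ee, h01, h01.symm]
    · simp [ee, h01, h01.symm, hj0, hj1, hφ]
  by_cases hj1 : j = 1
  · subst hj1
    rw [hskew]
    simp [ee, h01, h01.symm, hi0, hi1, hφ]
  · rw [h i j hi0 hi1 hj0 hj1]
    simp [ee, hi0, hi1, hj0, hj1]

end Cfsg.Agent.Lib.Helper86Ownorm
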