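import Mathlib
import Cfsg.Agent.Lib.Helper44ODefs
import Cfsg.Agent.Lib.Helper86Ownorm

set_option autoImplicit false
set_option linter.unusedSimpArgs false
set_option linter.unusedVariables false

/-! PROJECT 46, piece `wfib2`: an element of the fibre with a non-zero lower right block forces
`2 q^k` elements of positive weight in the fibre. -/

namespace Cfsg.Agent.Lib.Helper86Owfib2

open Matrix Cfsg Cfsg.Agent.Lib.Helper44Wt Cfsg.Agent.Lib.Helper44Lam
  Cfsg.Agent.Lib.Helper44SLDefs Cfsg.Agent.Lib.Helper44ODefs Cfsg.Agent.Lib.Helper86Ownorm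

variable {F : Type*} [Field F]

/-- extension of a vector by two zeros. -/
def ext0 (k : ℕ) (ψ : Fin k → F) : Fin (k + 2) → F :=
  Fin.cons (n := k + 1) (α := fun _ => F) 0 (Fin.cons (n := k) (α := fun _ => F) 0 ψ)

theorem ext0_zero (k : ℕ) (ψ : Fin k → F) : ext0 k ψ 0 = 0 := rfl

theorem ext0_one (k : ℕ) (ψ : Fin k → F) : ext0 k ψ 1 = 0 := rfl

theorem ext0_succ (k : ℕ) (ψ : Fin k → F) (j : Fin k) : ext0 k ψ j.succ.succ = ψ j := rfl

/-- the family `C + alt e₁ φ`. -/
def fam (k : ℕ) (C : Matrix (Fin (k + 2)) (Fin (k + 2)) F) (ψ : Fin k → F) :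
    Matrix (Fin (k + 2)) (Fin (k + 2)) F :=
  C + alt (ee 1) (ext0 k ψ)

theorem fam_mulVec (k : ℕ) (C : Matrix (Fin (k + 2)) (Fin (k + 2)) F)
    (hC1 : C *ᵥ ee 0 = ee 1) (ψ : Fin k → F) : fam k C ψ *ᵥ ee 0 = ee 1 := by
  rw [fam, Matrix.add_mulVec, hC1, alt_mulVec]
  have h1 : ext0 k ψ ⬝ᵥ (ee (0 : Fin (k + 2)) : Fin (k + 2) → F) = 0 := by
    rw [ee, dotProduct_single, ext0_zero, zero_mul]
  have h2 : (ee (1 : Fin (k + 2)) : Fin (k + 2) → F) ⬝ᵥ ee 0 = 0 := by
    simp [ee]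
  rw [h1, h2]
  simp

theorem fam_apply_low (k : ℕ) (C : Matrix (Fin (k + 2)) (Fin (k + 2)) F) (ψ : Fin k → F)
    (i j : Fin (k + 2)) (hi1 : i ≠ 1) (hj1 : j ≠ 1) : fam k C ψ i j = C i j := by
  rw [fam, Matrix.add_apply, alt_apply]
  simp [ee, hi1, hj1]

theorem fam_apply_one (k : ℕ) (C : Matrix (Fin (k + 2)) (Fin (k + 2)) F) (ψ : Fin k → F)
    (j : Fin k) : fam k C ψ 1 j.succ.succ = C 1 j.succ.succ + ψ j := by
  rw [fam, Matrix.add_apply, alt_apply, ext0_one, ext0_succ]
  simp [ee]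

theorem fam_injective (k : ℕ) (C : Matrix (Fin (k + 2)) (Fin (k + 2)) F) :
    Function.Injective (fam k C) := by
  intro ψ ψ' h
  funext j
  have := congrFun (congrFun h 1) j.succ.succ
  rw [fam_apply_one, fam_apply_one] at this
  exact add_left_cancel this

theorem fam_wt (k : ℕ) (m : Matrix (Fin (k + 2)) (Fin (k + 2)) F → ℕ)
    (hinv : ∀ (A : sqGL (k + 2) F) (C : Matrix (Fin (k + 2)) (Fin (k + 2)) F),
      m ((mt A)ᵀ * C * mt A) = m C)
    (C : Matrix (Fin (k + 2)) (Fin (k + 2)) F) (hC : IsAltM C) (hC1 : C *ᵥ ee 0 = ee 1)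
    (ψ : Fin k → F) : m (fam k C ψ) = m C := by
  have h := hinv (slToSq (k + 2) F (shearSL k (ext0 k ψ) (ext0_zero k ψ))) C
  have h' : Helper44ODefs.mt (slToSq (k + 2) F (shearSL k (ext0 k ψ) (ext0_zero k ψ))) =
      shear k (ext0 k ψ) := rfl
  rw [h', shear_congr k C hC, hC1] at h
  exact h

/-- the diagonal matrix with `c` at `i`. -/
def dg (k : ℕ) (i : Fin (k + 2)) (c : F) : Matrix (Fin (k + 2)) (Fin (k + 2)) F :=
  Matrix.diagonal (Function.update (fun _ => (1 : F)) i c)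

theorem det_dg (k : ℕ) (i : Fin (k + 2)) (c : F) : (dg k i c).det = c := by
  rw [dg, Matrix.det_diagonal, Finset.prod_update_of_mem (Finset.mem_univ i)]
  simp

theorem dg_congr_apply (k : ℕ) (i : Fin (k + 2)) (c : F)
    (C : Matrix (Fin (k + 2)) (Fin (k + 2)) F) (r s : Fin (k + 2)) :
    ((dg k i c)ᵀ * C * dg k i c) r s =
      Function.update (fun _ => (1 : F)) i c r * C r s * Function.update (fun _ => (1 : F)) i c s := by
  rw [dg, Matrix.diagonal_transpose, Matrix.mul_diagonal, Matrix.diagonal_mul]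

/-- the diagonal matrix with `a ^ 2` at `i` as an element of `sqGL`. -/
noncomputable def dgSq (k : ℕ) (i : Fin (k + 2)) (a : F) (ha : a ≠ 0) : sqGL (k + 2) F :=
  ⟨Matrix.GeneralLinearGroup.mkOfDetNeZero (dg k i (a ^ 2)) (by
      rw [det_dg]; exact pow_ne_zero 2 ha), ⟨Units.mk0 a ha, by
      apply Units.ext
      rw [Matrix.GeneralLinearGroup.val_det_apply]
      show (dg k i (a ^ 2)).det = _
      rw [det_dg]
      simp⟩⟩

theorem dgSq_coe (k : ℕ) (i : Fin (k + 2)) (a : F) (ha : a ≠ 0) :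
    mt (dgSq k i a ha) = dg k i (a ^ 2) := rfl

variable [Fintype F] [DecidableEq F]

theorem exists_sq_ne_one (hq : 3 < Fintype.card F) : ∃ a : F, a ≠ 0 ∧ a ^ 2 ≠ 1 := by
  by_contra hcon
  push Not at hcon
  have hsub : (Finset.univ : Finset F) ⊆ {0, 1, -1} := by
    intro a _
    by_cases ha : a = 0
    · simp [ha]
    · have h := hcon a ha
      rw [sq, mul_self_eq_one_iff] at h
      rcases h with h | h <;> simp [h]
  have h1 := Finset.card_le_card hsub
  have h2 : ({0, 1, -1} : Finset F).card ≤ 3 := Finset.card_le_three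
  rw [Finset.card_univ] at h1
  omega

theorem W_fib2 (k : ℕ) (hq : 3 < Fintype.card F) (m : Matrix (Fin (k + 2)) (Fin (k + 2)) F → ℕ)
    (hinv : ∀ (A : sqGL (k + 2) F) (C : Matrix (Fin (k + 2)) (Fin (k + 2)) F),
      m ((mt A)ᵀ * C * mt A) = m C)
    (C : Matrix (Fin (k + 2)) (Fin (k + 2)) F) (hC : IsAltM C) (hC1 : C *ᵥ ee 0 = ee 1)
    (hm : m C ≠ 0) (i j : Fin (k + 2)) (hi0 : i ≠ 0) (hi1 : i ≠ 1) (hj0 : j ≠ 0) (hj1 : j ≠ 1)
    (hij : C i j ≠ 0) :
    2 * Fintype.card F ^ k ≤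
      ∑ C : Matrix (Fin (k + 2)) (Fin (k + 2)) F, if C *ᵥ ee 0 = ee 1 then m C else 0 := by
  classical
  obtain ⟨a, ha, ha2⟩ := exists_sq_ne_one hq
  set C' : Matrix (Fin (k + 2)) (Fin (k + 2)) F :=
    (dg k i (a ^ 2))ᵀ * C * dg k i (a ^ 2) with hC'
  have hC'ap : ∀ r s, C' r s = Function.update (fun _ => (1 : F)) i (a ^ 2) r * C r s *
      Function.update (fun _ => (1 : F)) i (a ^ 2) s := fun r s => dg_congr_apply k i _ C r s
  have hskew : ∀ r s, C r s = - C s r := by
    intro r s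
    have := congrFun (congrFun hC.1 s) r
    simpa [Matrix.transpose_apply] using this
  have hcol : ∀ r, C r 0 = (ee (1 : Fin (k + 2)) : Fin (k + 2) → F) r := by
    intro r
    have := congrFun hC1 r
    rw [ee, Matrix.mulVec_single_one] at this
    exact this
  have hmC' : m C' = m C := by
    have := hinv (dgSq k i a ha) C
    rwa [dgSq_coe] at this
  have hC'alt : IsAltM C' := by
    constructor
    · ext r s
      rw [Matrix.transpose_apply, Matrix.neg_apply, hC'ap, hC'ap, hskew s r]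
      ring
    · intro r
      rw [hC'ap, hC.2 r]
      ring
  have hC'1 : C' *ᵥ ee 0 = ee 1 := by
    funext r
    rw [ee, Matrix.mulVec_single_one]
    show C' r 0 = _
    rw [hC'ap, hcol, Function.update_of_ne (Ne.symm hi0)]
    by_cases hr : r = 1
    · subst hr
      rw [Function.update_of_ne (Ne.symm hi1)]
      simp
    · simp [ee, hr]
  have hji : j ≠ i := by
    rintro rfl
    exact hij (hC.2 j)
  have hC'ij : C' i j ≠ C i j := by
    rw [hC'ap, Function.update_self, Function.update_of_ne hji, mul_one]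
    intro h
    apply ha2
    have : (a ^ 2 - 1) * C i j = 0 := by rw [sub_mul, h, one_mul, sub_self]
    rcases mul_eq_zero.mp this with h | h
    · exact sub_eq_zero.mp h
    · exact absurd h hij
  -- the two families
  set f : (Fin k → F) ⊕ (Fin k → F) → Matrix (Fin (k + 2)) (Fin (k + 2)) F :=
    Sum.elim (fam k C) (fam k C') with hf
  have hfinj : Function.Injective f := by
    apply Function.Injective.sumElim (fam_injective k C) (fam_injective k C')
    intro ψ ψ' h
    have := congrFun (congrFun h i) j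
    rw [fam_apply_low k C ψ i j hi1 hj1, fam_apply_low k C' ψ' i j hi1 hj1] at this
    exact hC'ij this.symm
  set g : Matrix (Fin (k + 2)) (Fin (k + 2)) F → ℕ :=
    fun C => if C *ᵥ ee 0 = ee 1 then m C else 0 with hg
  have hgf : ∀ x, 1 ≤ g (f x) := by
    intro x
    rcases x with ψ | ψ
    · show 1 ≤ (if fam k C ψ *ᵥ ee 0 = ee 1 then m (fam k C ψ) else 0)
      rw [if_pos (fam_mulVec k C hC1 ψ), fam_wt k m hinv C hC hC1]
      exact Nat.one_le_iff_ne_zero.mpr hm
    · show 1 ≤ (if fam k C' ψ *ᵥ ee 0 = ee 1 then m (fam k C' ψ) else 0)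
      rw [if_pos (fam_mulVec k C' hC'1 ψ), fam_wt k m hinv C' hC'alt hC'1, hmC']
      exact Nat.one_le_iff_ne_zero.mpr hm
  calc 2 * Fintype.card F ^ k = Fintype.card ((Fin k → F) ⊕ (Fin k → F)) := by
        rw [Fintype.card_sum, Fintype.card_fun, Fintype.card_fin]
        ring
    _ = ∑ _x : (Fin k → F) ⊕ (Fin k → F), 1 := by simp
    _ ≤ ∑ x : (Fin k → F) ⊕ (Fin k → F), g (f x) := Finset.sum_le_sum (fun x _ => hgf x)
    _ = ∑ y ∈ Finset.univ.image f, g y := by
        rw [Finset.sum_image (fun x _ y _ h => hfinj h)]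
    _ ≤ ∑ y, g y := Finset.sum_le_sum_of_subset (Finset.subset_univ _)

end Cfsg.Agent.Lib.Helper86Owfib2
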