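import Mathlib
import Cfsg.Agent.Lib.Helper44ODefs
import Cfsg.Agent.Lib.Helper30Oslfix
import Cfsg.Agent.Lib.Helper30Oo2trans
import Cfsg.Agent.Lib.Helper30Oo2fib
import Cfsg.Agent.Lib.Helper78Owfib1
import Cfsg.Agent.Lib.Helper86Owfib2
import Cfsg.Agent.Lib.Helper86Ownorm
import Cfsg.Agent.Lib.Helper24Owtot

set_option autoImplicit false

/-! PROJECT 46, piece `wmain`. -/

namespace Cfsg.Agent.Lib.Helper24Owmain

open Matrix Cfsg Cfsg.Agent.Lib.Helper44Wt Cfsg.Agent.Lib.Helper44Lam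
  Cfsg.Agent.Lib.Helper44SLDefs Cfsg.Agent.Lib.Helper44ODefs

variable {F : Type*} [Field F] [Fintype F] [DecidableEq F]

omit [Fintype F] [DecidableEq F] in
theorem C0_mem_O2 (k : ℕ) : C0 k F ∈ (O2 : Set (Matrix (Fin (k + 2)) (Fin (k + 2)) F)) := by
  refine ⟨ee 1, ee 0, ?_, rfl⟩
  rw [LinearIndependent.pair_iff]
  intro s t h
  have h0 := congrFun h 0
  have h1 := congrFun h 1
  have h01 : (0 : Fin (k + 2)) ≠ 1 := Fin.zero_ne_one
  simp [ee, h01, h01.symm] at h0 h1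
  exact ⟨h1, h0⟩

theorem W_main (k : ℕ) (hk : 1 ≤ k) (hq : 3 < Fintype.card F)
    (m : Matrix (Fin (k + 2)) (Fin (k + 2)) F → ℕ)
    (halt : ∀ C, m C ≠ 0 → IsAltM C)
    (hinv : ∀ (A : sqGL (k + 2) F) (C : Matrix (Fin (k + 2)) (Fin (k + 2)) F),
      m ((mt A)ᵀ * C * mt A) = m C)
    (hne : ∃ C, C ≠ 0 ∧ m C ≠ 0)
    (hsum : ∑ C : Matrix (Fin (k + 2)) (Fin (k + 2)) F, (if C = 0 then 0 else m C) <
      2 * (Fintype.card F ^ (k + 1) - 1) * Fintype.card F ^ k) :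
    (∀ C, C ∈ O2 → m C = 1) ∧ (∀ C, C ∉ O2 → C ≠ 0 → m C = 0) := by
  set q := Fintype.card F with hqdef
  set M := ∑ C : Matrix (Fin (k + 2)) (Fin (k + 2)) F, if C *ᵥ ee 0 = ee 1 then m C else 0 with hM
  have hinvSL : ∀ (A : Matrix.SpecialLinearGroup (Fin (k + 2)) F)
      (C : Matrix (Fin (k + 2)) (Fin (k + 2)) F),
      m ((A : Matrix (Fin (k + 2)) (Fin (k + 2)) F)ᵀ * C *
        (A : Matrix (Fin (k + 2)) (Fin (k + 2)) F)) = m C :=
    fun A C => hinv (slToSq (k + 2) F A) C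
  have hM2 : M < 2 * q ^ k := by
    have h1 := Cfsg.Agent.Lib.Helper24Owtot.W_tot k hk m hinv
    have h2 : (q ^ (k + 1) - 1) * M < (q ^ (k + 1) - 1) * (2 * q ^ k) := by
      calc (q ^ (k + 1) - 1) * M ≤ _ := h1
        _ < _ := hsum
        _ = _ := by ring
    exact Nat.lt_of_mul_lt_mul_left h2
  -- elements of the fibre of nonzero weight are congruent to `C0`
  have hA : ∀ C : Matrix (Fin (k + 2)) (Fin (k + 2)) F, C *ᵥ ee 0 = ee 1 → m C ≠ 0 →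
      ∃ A : Matrix.SpecialLinearGroup (Fin (k + 2)) F,
      C = (A : Matrix (Fin (k + 2)) (Fin (k + 2)) F)ᵀ * C0 k F *
        (A : Matrix (Fin (k + 2)) (Fin (k + 2)) F) := by
    intro C hC1 hm
    apply Cfsg.Agent.Lib.Helper86Ownorm.W_norm k C (halt C hm) hC1
    intro i j hi0 hi1 hj0 hj1
    by_contra hij
    have := Cfsg.Agent.Lib.Helper86Owfib2.W_fib2 k hq m hinv C (halt C hm) hC1 hm i j hi0 hi1 hj0 hj1
      hij
    exact absurd (lt_of_le_of_lt this hM2) (lt_irrefl _)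
  have hC0le : m (C0 k F) ≤ 1 := by
    have h1 := Cfsg.Agent.Lib.Helper78Owfib1.W_fib1 k m hinv
    have h2 : q ^ k * m (C0 k F) < q ^ k * 2 := by
      calc q ^ k * m (C0 k F) ≤ M := h1
        _ < 2 * q ^ k := hM2
        _ = _ := by ring
    have := Nat.lt_of_mul_lt_mul_left h2
    omega
  have hD : ∀ C : Matrix (Fin (k + 2)) (Fin (k + 2)) F, C ≠ 0 → m C ≠ 0 →
      C ∈ O2 ∧ m C = m (C0 k F) := by
    intro C hC0 hm
    obtain ⟨A, hA1⟩ := Cfsg.Agent.Lib.Helper30Oslfix.exists_SL_fib k hk C (halt C hm) hC0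
    have hm' : m ((A : Matrix (Fin (k + 2)) (Fin (k + 2)) F)ᵀ * C *
        (A : Matrix (Fin (k + 2)) (Fin (k + 2)) F)) ≠ 0 := by rw [hinvSL]; exact hm
    obtain ⟨B, hB⟩ := hA _ hA1 hm'
    constructor
    · have h1 : (A : Matrix (Fin (k + 2)) (Fin (k + 2)) F)ᵀ * C *
        (A : Matrix (Fin (k + 2)) (Fin (k + 2)) F) ∈ O2 := by
        rw [hB]
        exact Cfsg.Agent.Lib.Helper30Oo2fib.O2_congr B _ (C0_mem_O2 k)
      have h2 := Cfsg.Agent.Lib.Helper30Oo2fib.O2_congr A⁻¹ _ h1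
      rwa [Cfsg.Agent.Lib.Helper30Oo2fib.congr_congr A⁻¹ A (mul_inv_cancel A)] at h2
    · rw [← hinvSL A C, hB, hinvSL]
  have hC01 : m (C0 k F) = 1 := by
    obtain ⟨C, hC0, hm⟩ := hne
    have := (hD C hC0 hm).2
    omega
  refine ⟨?_, ?_⟩
  · intro C hC
    obtain ⟨A, hA⟩ := Cfsg.Agent.Lib.Helper30Oo2trans.O2_trans k hk C hC
    rw [hA, hinvSL, hC01]
  · intro C hC hC0
    by_contra hm
    exact hC (hD C hC0 hm).1

end Cfsg.Agent.Lib.Helper24Owmain
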