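import Mathlib
import Cfsg.Prelude.Def_Blocks
import Cfsg.Agent.S4441
import Cfsg.Agent.S0969
import Cfsg.Agent.Lib.Helper25Tuan
import Cfsg.Agent.Lib.Helper5Exc3

set_option autoImplicit false

/-! No simple group of order 459648 = 2^7 * 3^3 * 7 * 19. -/

namespace Cfsg.Agent.Lib.Helper25O459

open Cfsg Subgroup
open Cfsg.Agent.Lib.Helper81Base Cfsg.Agent.Lib.Helper81BB Cfsg.Agent.Lib.Helper82Linear
  Cfsg.Agent.Lib.Helper5Exc Cfsg.Agent.Lib.Helper5Exc2 Cfsg.Agent.Lib.Helper5Exc3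
  Cfsg.Agent.Lib.Helper21Simple
open scoped ComplexConjugate

theorem deg_cases (d : ℕ) (s : ℤ) (hd : d ∣ 459648) (h38 : 38 ≤ d) (hsq : d ^ 2 ≤ 459648)
    (hs : s = 1 ∨ s = -1) (hc : (d : ℤ) ≡ s [ZMOD 19]) :
    (s = 1 ∧ d = 96) ∨ (s = -1 ∧ (d = 56 ∨ d = 189)) := by
  have hle : d < 678 := by nlinarith
  have hmem : d ∈ (Finset.range 678).filter
      (fun d => 459648 % d = 0 ∧ 38 ≤ d ∧ (d % 19 = 1 ∨ d % 19 = 18)) := by
    rw [Finset.mem_filter, Finset.mem_range]
    refine ⟨hle, Nat.mod_eq_zero_of_dvd hd, h38, ?_⟩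
    unfold Int.ModEq at hc
    rcases hs with rfl | rfl <;> omega
  have hset : (Finset.range 678).filter
      (fun d => 459648 % d = 0 ∧ 38 ≤ d ∧ (d % 19 = 1 ∨ d % 19 = 18)) = {56, 96, 189} := by
    decide +kernel
  rw [hset] at hmem
  simp only [Finset.mem_insert, Finset.mem_singleton] at hmem
  unfold Int.ModEq at hc
  rcases hmem with rfl | rfl | rfl <;> rcases hs with rfl | rfl <;> simp_all

theorem n_cases (n : ℕ) (hd : n ∣ 24192) (h19 : n % 19 = 1) (h1 : n ≠ 1) : n = 96 ∨ n = 1008 := by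
  have hmem : n ∈ (Finset.range 24193).filter (fun d => 24192 % d = 0 ∧ d % 19 = 1) := by
    rw [Finset.mem_filter, Finset.mem_range]
    exact ⟨Nat.lt_succ_of_le (Nat.le_of_dvd (by norm_num) hd), Nat.mod_eq_zero_of_dvd hd, h19⟩
  have hset : (Finset.range 24193).filter (fun d => 24192 % d = 0 ∧ d % 19 = 1) = {1, 96, 1008} := by
    decide +kernel
  rw [hset] at hmem
  simp only [Finset.mem_insert, Finset.mem_singleton] at hmem
  rcases hmem with rfl | rfl | rfl <;> simp_all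

theorem e_cases (e : ℕ) (hd : e ∣ 18) (h1 : e ≠ 1) : e = 2 ∨ e = 3 ∨ e = 6 ∨ e = 9 ∨ e = 18 := by
  have hle : e ≤ 18 := Nat.le_of_dvd (by norm_num) hd
  interval_cases e <;> simp_all

theorem arith1008 (e a b c d : ℕ) (ε : ℤ) (he : e = 2 ∨ e = 3 ∨ e = 6) (habc : 1 + a + b + c = e)
    (hε : ε = 1 ∨ ε = -1) (hd : d ∣ 459648)
    (h : ε * d = 1 + 96 * a - 56 * b - 189 * c) :
    e = 6 ∧ a = 2 ∧ b = 2 ∧ c = 1 ∧ d = 108 := by
  have ha : a < 6 := by omega
  have hb : b < 6 := by omega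
  have hc : c < 6 := by omega
  have hv : d = (1 + 96 * (a : ℤ) - 56 * b - 189 * c).natAbs := by
    rw [← h]
    rcases hε with rfl | rfl <;> simp
  have hchk : ∀ a ∈ Finset.range 6, ∀ b ∈ Finset.range 6, ∀ c ∈ Finset.range 6,
      (1 + a + b + c = 2 ∨ 1 + a + b + c = 3 ∨ 1 + a + b + c = 6) →
      (1 + 96 * (a : ℤ) - 56 * b - 189 * c).natAbs ∣ 459648 → a = 2 ∧ b = 2 ∧ c = 1 := by
    decide +kernel
  obtain ⟨rfl, rfl, rfl⟩ := hchk a (Finset.mem_range.mpr ha) b (Finset.mem_range.mpr hb) c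
    (Finset.mem_range.mpr hc) (by rw [habc]; exact he) (hv ▸ hd)
  refine ⟨by omega, rfl, rfl, rfl, ?_⟩
  rw [hv]
  norm_num

theorem arith96 (e d : ℕ) (ε : ℤ) (he : e = 2 ∨ e = 3 ∨ e = 6 ∨ e = 9 ∨ e = 18)
    (hε : ε = 1 ∨ ε = -1) (hd : d ∣ 459648) (h : ε * d = 1 + 96 * ((e : ℤ) - 1)) : False := by
  rcases he with rfl | rfl | rfl | rfl | rfl <;> rcases hε with rfl | rfl <;>
    first
    | omega
    | (have h97 : d = 97 := by omega
       subst h97; revert hd; decide)
    | (have h97 : d = 193 := by omega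
       subst h97; revert hd; decide)
    | (have h97 : d = 481 := by omega
       subst h97; revert hd; decide)
    | (have h97 : d = 769 := by omega
       subst h97; revert hd; decide)
    | (have h97 : d = 1633 := by omega
       subst h97; revert hd; decide)

theorem arith_final (k m : ℕ) (h : (19 * (k : ℤ) - 108) * (7 * (m : ℤ) - 108) = -108) : False := by
  have h1 : (19 * (k : ℤ) - 108) ∣ 108 := ⟨-(7 * (m : ℤ) - 108), by linear_combination h⟩
  have h2 := Int.le_of_dvd (by norm_num) h1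
  have hk : k ≤ 11 := by omega
  interval_cases k <;> omega

theorem fac7 : (459648 : ℕ).factorization 7 = 1 := by
  have hp : Nat.Prime 7 := by norm_num
  have h1 : 1 ≤ (459648 : ℕ).factorization 7 :=
    (hp.dvd_iff_one_le_factorization (by norm_num)).mp (by norm_num)
  have h2 : ¬ 2 ≤ (459648 : ℕ).factorization 7 := fun h =>
    absurd ((hp.pow_dvd_iff_le_factorization (by norm_num)).mpr h) (by norm_num)
  omega

section grp

variable {G : Type*} [Group G] [Fintype G]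

theorem defect_zero_vanish (r : ℕ) [Fact r.Prime] (hfac : (Nat.card G).factorization r = 1)
    (χ : IrrCharacter G) (hrd : r ∣ charDegree (χ : G → ℂ)) (g z : G) (hpart : IsPPart r g z)
    (hz : z ≠ 1) : (χ : G → ℂ) g = 0 := by
  have hr : r.Prime := Fact.out
  obtain ⟨M', hM'⟩ := Cfsg.Agent.Lib.Helper81ClassMul.exists_modular hr
  have hdeg : (charDegree (χ : G → ℂ)).factorization r
      = (⊥ : Subgroup G).index.factorization r := by
    rw [Subgroup.index_bot, hfac]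
    apply le_antisymm
    · rw [← hfac]
      exact (Nat.factorization_le_iff_dvd
        (Cfsg.Agent.Lib.Helper83Char.charDegree_pos χ.2).ne'
        Nat.card_pos.ne').mpr (charDegree_dvd χ) r
    · exact (hr.dvd_iff_one_le_factorization
        (Cfsg.Agent.Lib.Helper83Char.charDegree_pos χ.2).ne').mp hrd
  exact (Cfsg.Agent.S0969.result r M' hM' ⊥ IsPGroup.of_bot bot_le χ hdeg).2
    g z hpart (by rw [mem_bot]; exact hz)

theorem deg_sq_le (χ : IrrCharacter G) : charDegree (χ : G → ℂ) ^ 2 ≤ Nat.card G := by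
  rw [← Cfsg.Agent.Lib.Helper82Cod.sum_degree_sq (G := G)]
  exact Finset.single_le_sum (f := fun ψ : IrrCharacter G => charDegree (ψ : G → ℂ) ^ 2)
    (fun _ _ => Nat.zero_le _) (Finset.mem_univ χ)

omit [Fintype G] in
theorem deg_irrOne : charDegree ((irrOne G : IrrCharacter G) : G → ℂ) = 1 := by
  simp [charDegree, irrOne]

theorem stage1 [IsSimpleGroup G] [Fact (Nat.Prime 19)] (hcard : Nat.card G = 459648)
    (M : Ideal AlgInt) (hM : IsPModular 19 M) (P : Sylow 19 G) :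
    Nat.card (Sylow 19 G) = 1008 ∧ ∃ A Y : Finset (IrrCharacter G), A.card = 2 ∧
      (∀ χ ∈ principalBlock M G, χ = irrOne G ∨ 7 ∣ charDegree (χ : G → ℂ) ∨ χ ∈ A ∨ χ ∈ Y) ∧
      (∀ χ ∈ A, charDegree (χ : G → ℂ) = 96 ∧
        ∀ x ∈ (P : Subgroup G), x ≠ 1 → (χ : G → ℂ) x = 1) ∧
      (∀ θ ∈ Y, charDegree (θ : G → ℂ) = 108) ∧
      (∀ θ ∈ Y, ∀ θ' ∈ Y, ∀ g : G, ¬ 19 ∣ orderOf g → (θ : G → ℂ) g = (θ' : G → ℂ) g) := by
  classical
  have hG : ¬ IsMulCommutative G := not_comm_of_not_prime (by rw [hcard]; norm_num)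
  obtain ⟨hP, n, e, hn19, hn1, he1, he18, hen, hn, he⟩ :=
    sylow_setup hG 24192 (by rw [hcard]) (by norm_num) P
  have hCmul := card_centralizer_mul P
  rw [he, hn, hcard] at hCmul
  have hn' := n_cases n (dvd_trans (dvd_mul_left n e) hen) hn19 hn1
  have he' := e_cases e he18 he1
  have h2C : 2 ∣ Nat.card (centralizer ((P : Subgroup G) : Set G)) := by
    rcases hn' with rfl | rfl <;> rcases he' with rfl | rfl | rfl | rfl | rfl <;> omega
  obtain ⟨c, hc⟩ := exists_prime_orderOf_dvd_card' 2 h2C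
  have hc2 : orderOf (c : G) = 2 := by rw [Subgroup.orderOf_coe]; exact hc
  obtain ⟨X, Y, hXY, hdisj, hXc, hYc, εX, ε, hX, hε, hYdeg, hYag, hYsum⟩ :=
    Cfsg.Agent.S4441.result 19 M hM (by norm_num) P hP e he
  have h1reg : ¬ 19 ∣ orderOf (1 : G) := by rw [orderOf_one]; norm_num
  have hXinfo : ∀ χ ∈ X, (χ = irrOne G ∧ εX χ = 1) ∨
      (χ ≠ irrOne G ∧ εX χ = 1 ∧ charDegree (χ : G → ℂ) = 96) ∨
      (χ ≠ irrOne G ∧ εX χ = -1 ∧
        (charDegree (χ : G → ℂ) = 56 ∨ charDegree (χ : G → ℂ) = 189)) := by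
    intro χ hχ
    obtain ⟨h1, h2, h3⟩ := hX χ hχ
    have hχB : χ ∈ principalBlock M G := by rw [hXY]; exact Or.inl hχ
    by_cases hχ1 : χ = irrOne G
    · left
      refine ⟨hχ1, ?_⟩
      rcases h1 with h | h
      · exact h
      · rw [h, hχ1, deg_irrOne] at h2
        unfold Int.ModEq at h2
        omega
    · right
      have h38 := two_p_le_deg hG hM P hP (by norm_num) c c.2 hc2 χ hχB hχ1
      have hd1 := charDegree_dvd χ
      have hd2 := deg_sq_le χ
      rw [hcard] at hd1 hd2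
      have h38' : 38 ≤ charDegree (χ : G → ℂ) := by omega
      have h2' : (charDegree (χ : G → ℂ) : ℤ) ≡ εX χ [ZMOD 19] := by exact_mod_cast h2
      rcases deg_cases _ _ hd1 h38' hd2 h1 h2' with ⟨h4, h5⟩ | ⟨h4, h5⟩
      · exact Or.inl ⟨hχ1, h4, h5⟩
      · exact Or.inr ⟨hχ1, h4, h5⟩
  obtain ⟨Xf, hXf⟩ : ∃ Xf : Finset (IrrCharacter G), Xf = Finset.univ.filter (· ∈ X) := ⟨_, rfl⟩
  have hmemXf : ∀ χ, χ ∈ Xf ↔ χ ∈ X := by intro χ; rw [hXf]; simp
  have hXfc : Xf.card = e := by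
    rw [← hXc, hXf, Nat.card_eq_fintype_card, Fintype.card_subtype]
  have hsumZ : ∀ θ ∈ Y, ε * (charDegree (θ : G → ℂ) : ℤ)
      = ∑ χ ∈ Xf, εX χ * (charDegree (χ : G → ℂ) : ℤ) := by
    intro θ hθ
    have h := hYsum θ hθ 1 h1reg
    rw [Cfsg.Agent.Lib.Helper59BLFin.finsum_mem_fintype, ← Finset.sum_filter, ← hXf] at h
    have h2 : ((ε * (charDegree (θ : G → ℂ) : ℤ) : ℤ) : ℂ)
        = ((∑ χ ∈ Xf, εX χ * (charDegree (χ : G → ℂ) : ℤ) : ℤ) : ℂ) := by
      push_cast
      rw [charDegree_castC, h]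
      exact Finset.sum_congr rfl fun χ _ => by rw [charDegree_castC]
    exact_mod_cast h2
  have hterm : ∀ χ ∈ Xf, εX χ * (charDegree (χ : G → ℂ) : ℤ)
      = (if χ = irrOne G then 1 else 0) + 96 * (if charDegree (χ : G → ℂ) = 96 then 1 else 0)
        - 56 * (if charDegree (χ : G → ℂ) = 56 then 1 else 0)
        - 189 * (if charDegree (χ : G → ℂ) = 189 then 1 else 0) := by
    intro χ hχ
    rcases hXinfo χ ((hmemXf χ).mp hχ) with ⟨h1, h2⟩ | ⟨h1, h2, h3⟩ | ⟨h1, h2, h3 | h3⟩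
    · rw [h2, h1, deg_irrOne]; simp
    · rw [h2, h3]; simp [h1]
    · rw [h2, h3]; simp [h1]
    · rw [h2, h3]; simp [h1]
  have hone : ∀ χ ∈ Xf, (1 : ℤ)
      = (if χ = irrOne G then 1 else 0) + (if charDegree (χ : G → ℂ) = 96 then 1 else 0)
        + (if charDegree (χ : G → ℂ) = 56 then 1 else 0)
        + (if charDegree (χ : G → ℂ) = 189 then 1 else 0) := by
    intro χ hχ
    rcases hXinfo χ ((hmemXf χ).mp hχ) with ⟨h1, h2⟩ | ⟨h1, h2, h3⟩ | ⟨h1, h2, h3 | h3⟩
    · rw [h1, deg_irrOne]; simp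
    · rw [h3]; simp [h1]
    · rw [h3]; simp [h1]
    · rw [h3]; simp [h1]
  obtain ⟨o, ho⟩ : ∃ o : ℕ, o = (Xf.filter (fun χ => χ = irrOne G)).card := ⟨_, rfl⟩
  obtain ⟨a, ha⟩ : ∃ a : ℕ, a = (Xf.filter (fun χ : IrrCharacter G => charDegree (χ : G → ℂ) = 96)).card :=
    ⟨_, rfl⟩
  obtain ⟨b, hb⟩ : ∃ b : ℕ, b = (Xf.filter (fun χ : IrrCharacter G => charDegree (χ : G → ℂ) = 56)).card :=
    ⟨_, rfl⟩
  obtain ⟨c', hc'⟩ : ∃ c : ℕ, c = (Xf.filter (fun χ : IrrCharacter G => charDegree (χ : G → ℂ) = 189)).card :=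
    ⟨_, rfl⟩
  have hS1 : ∑ χ ∈ Xf, εX χ * (charDegree (χ : G → ℂ) : ℤ)
      = (o : ℤ) + 96 * a - 56 * b - 189 * c' := by
    rw [Finset.sum_congr rfl hterm, Finset.sum_sub_distrib, Finset.sum_sub_distrib,
      Finset.sum_add_distrib, ← Finset.mul_sum, ← Finset.mul_sum, ← Finset.mul_sum,
      Finset.sum_boole, Finset.sum_boole, Finset.sum_boole, Finset.sum_boole, ← ho, ← ha, ← hb,
      ← hc']
  have hS2 : (e : ℤ) = (o : ℤ) + a + b + c' := by
    have h1 : (e : ℤ) = ∑ χ ∈ Xf, (1 : ℤ) := by simp [hXfc]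
    rw [h1, Finset.sum_congr rfl hone, Finset.sum_add_distrib, Finset.sum_add_distrib,
      Finset.sum_add_distrib,
      Finset.sum_boole, Finset.sum_boole, Finset.sum_boole, Finset.sum_boole, ← ho, ← ha, ← hb,
      ← hc']
  have ho' : o = if irrOne G ∈ X then 1 else 0 := by
    rw [ho, Finset.filter_eq']
    by_cases h : irrOne G ∈ X
    · rw [if_pos ((hmemXf _).mpr h), if_pos h]; simp
    · rw [if_neg (fun h' => h ((hmemXf _).mp h')), if_neg h]; simp
  have := hM.2.1.isPrime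
  have h1B : irrOne G ∈ principalBlock M G := Cfsg.Agent.Lib.Helper81Block.sameBlock_refl _
  have hPnt : ∃ x ∈ (P : Subgroup G), x ≠ 1 := by
    have hr1 : 1 < Nat.card ↥(P : Subgroup G) := by rw [hP]; norm_num
    have : Nontrivial ↥(P : Subgroup G) := Finite.one_lt_card_iff_nontrivial.mp hr1
    obtain ⟨y, hy⟩ := exists_ne (1 : ↥(P : Subgroup G))
    exact ⟨y, y.2, fun h1 => hy (Subtype.ext h1)⟩
  obtain ⟨x0, hx0P, hx01⟩ := hPnt
  have h7 : n = 96 → b = 0 ∧ c' = 0 := by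
    intro hn96
    have : Fact (Nat.Prime 7) := ⟨by norm_num⟩
    have h7C : 7 ∣ Nat.card (centralizer ((P : Subgroup G) : Set G)) := by
      subst hn96
      rcases he' with rfl | rfl | rfl | rfl | rfl <;> omega
    obtain ⟨c7, hc7⟩ := exists_prime_orderOf_dvd_card' 7 h7C
    have hc7' : orderOf (c7 : G) = 7 := by rw [Subgroup.orderOf_coe]; exact hc7
    have hnd : ∀ χ ∈ Xf, ¬ 7 ∣ charDegree (χ : G → ℂ) := by
      intro χ hχ hd
      obtain ⟨h1, h2, h3⟩ := hX χ ((hmemXf χ).mp hχ)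
      have h4 := h3 x0 hx0P hx01 c7 c7.2 (by rw [hc7']; norm_num)
      have hcomm : Commute (c7 : G) x0 := ((mem_centralizer_iff.mp c7.2) x0 hx0P).symm
      have hox : orderOf x0 ∣ 19 := by
        have h5 := orderOf_dvd_natCard (⟨x0, hx0P⟩ : ↥(P : Subgroup G))
        rwa [hP, ← Subgroup.orderOf_coe] at h5
      have hpart : IsPPart 7 (x0 * c7) (c7 : G) := by
        refine ⟨x0, hcomm.eq, hcomm, ⟨1, by rw [hc7', pow_one]⟩, ?_⟩
        intro h7x
        have := dvd_trans h7x hox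
        omega
      have h5 := defect_zero_vanish 7 (by rw [hcard]; exact fac7) χ hd _ _ hpart
        (by intro h; rw [h, orderOf_one] at hc7'; omega)
      rw [h5] at h4
      rcases h1 with h | h <;> rw [h] at h4 <;> norm_num at h4
    constructor
    · rw [hb, Finset.card_eq_zero, Finset.filter_eq_empty_iff]
      intro χ hχ h56
      exact hnd χ hχ (by rw [h56]; norm_num)
    · rw [hc', Finset.card_eq_zero, Finset.filter_eq_empty_iff]
      intro χ hχ h189
      exact hnd χ hχ (by rw [h189]; norm_num)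
  have hoX : irrOne G ∈ X := by
    by_contra hno
    have hY1 : irrOne G ∈ Y := by
      rw [hXY] at h1B
      exact h1B.resolve_left hno
    have h1 := hsumZ _ hY1
    have ho0 : o = 0 := by rw [ho', if_neg hno]
    rw [hS1, deg_irrOne] at h1
    rcases hn' with hn96 | rfl
    · obtain ⟨hb0, hc0⟩ := h7 hn96
      rcases hε with rfl | rfl <;> rcases he' with rfl | rfl | rfl | rfl | rfl <;> omega
    · rcases hε with rfl | rfl <;> rcases he' with rfl | rfl | rfl | rfl | rfl <;> omega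
  have ho1 : o = 1 := by rw [ho', if_pos hoX]
  have hYne : ∃ θ, θ ∈ Y := by
    by_contra hcon
    push Not at hcon
    have hY0 : Y = ∅ := Set.eq_empty_iff_forall_notMem.mpr hcon
    have h0 : Nat.card (∅ : Set (IrrCharacter G)) = 0 := by simp
    rw [hY0, h0] at hYc
    rcases he' with rfl | rfl | rfl | rfl | rfl <;> omega
  obtain ⟨θ0, hθ0⟩ := hYne
  have hdθ : ∀ θ : IrrCharacter G, charDegree (θ : G → ℂ) ∣ 459648 := by
    intro θ
    have := charDegree_dvd θ
    rwa [hcard] at this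
  rcases hn' with hn96 | hn1008
  · exfalso
    obtain ⟨hb0, hc0⟩ := h7 hn96
    have h1 := hsumZ _ hθ0
    rw [hS1] at h1
    apply arith96 e _ ε he' hε (hdθ θ0)
    rw [h1]
    subst hb0 hc0 ho1
    push_cast at hS2 ⊢
    linarith
  · have he3 : e = 2 ∨ e = 3 ∨ e = 6 := by
      subst hn1008
      rcases he' with rfl | rfl | rfl | rfl | rfl <;> omega
    have hall : ∀ θ ∈ Y, e = 6 ∧ a = 2 ∧ b = 2 ∧ c' = 1 ∧ charDegree (θ : G → ℂ) = 108 := by
      intro θ hθ
      have h1 := hsumZ _ hθ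
      rw [hS1, ho1] at h1
      exact arith1008 e a b c' _ ε he3 (by omega) hε (hdθ θ) (by rw [h1]; push_cast; ring)
    obtain ⟨he6, ha2, hb2, hc1, -⟩ := hall θ0 hθ0
    refine ⟨by rw [hn, hn1008], Xf.filter (fun χ : IrrCharacter G => charDegree (χ : G → ℂ) = 96),
      Finset.univ.filter (· ∈ Y), by rw [← ha, ha2], ?_, ?_, ?_, ?_⟩
    · intro χ hχ
      rw [hXY] at hχ
      rcases hχ with hχ | hχ
      · rcases hXinfo χ hχ with ⟨h1, h2⟩ | ⟨h1, h2, h3⟩ | ⟨h1, h2, h3 | h3⟩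
        · exact Or.inl h1
        · exact Or.inr (Or.inr (Or.inl (Finset.mem_filter.mpr ⟨(hmemXf χ).mpr hχ, h3⟩)))
        · exact Or.inr (Or.inl (by rw [h3]; norm_num))
        · exact Or.inr (Or.inl (by rw [h3]; norm_num))
      · exact Or.inr (Or.inr (Or.inr (by simpa using hχ)))
    · intro χ hχ
      obtain ⟨hχX, h96⟩ := Finset.mem_filter.mp hχ
      refine ⟨h96, ?_⟩
      intro x hx hx1
      have hχX' := (hmemXf χ).mp hχX
      have h3 := (hX χ hχX').2.2 x hx hx1 1 (one_mem _) h1reg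
      rw [mul_one] at h3
      rw [h3]
      rcases hXinfo χ hχX' with ⟨h1, h2⟩ | ⟨h1, h2, h3⟩ | ⟨h1, h2, h3 | h3⟩
      · rw [h2]; simp
      · rw [h2]; simp
      · omega
      · omega
    · intro θ hθ
      exact (hall θ (by simpa using hθ)).2.2.2.2
    · intro θ hθ θ' hθ'
      exact hYag θ (by simpa using hθ) θ' (by simpa using hθ')

theorem no133 [Fact (Nat.Prime 19)] (hcard : Nat.card G = 459648)
    (hn : Nat.card (Sylow 19 G) = 1008) (g : G) (h19 : 19 ∣ orderOf g) : ¬ 7 ∣ orderOf g := by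
  intro h7
  have ho : orderOf g ≠ 0 := (orderOf_pos g).ne'
  have hu : orderOf (g ^ (orderOf g / 19)) = 19 := orderOf_pow_orderOf_div ho h19
  have hw : orderOf (g ^ (orderOf g / 7)) = 7 := orderOf_pow_orderOf_div ho h7
  have hpg : IsPGroup 19 (Subgroup.zpowers (g ^ (orderOf g / 19))) := by
    apply IsPGroup.of_card (n := 1)
    rw [Nat.card_zpowers, hu, pow_one]
  obtain ⟨S, hS⟩ := hpg.exists_le_sylow
  have hSc : Nat.card (S : Subgroup G) = 19 := by
    have := (sylow_card_index (p := 19) (a := 1) (m := 24192) (by rw [hcard]; norm_num) (by norm_num) S).1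
    simpa using this
  have hSx : Subgroup.zpowers (g ^ (orderOf g / 19)) = (S : Subgroup G) :=
    Subgroup.eq_of_le_of_card_ge hS (by rw [hSc, Nat.card_zpowers, hu])
  have hwC : g ^ (orderOf g / 7) ∈ centralizer ((S : Subgroup G) : Set G) := by
    rw [mem_centralizer_iff]
    intro y hy
    have hy' : y ∈ Subgroup.zpowers (g ^ (orderOf g / 19)) := by rw [hSx]; exact hy
    obtain ⟨k, rfl⟩ := hy'
    exact (((Commute.refl g).pow_pow _ _).zpow_left k).eq
  have h1 := card_centralizer_mul S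
  rw [hn, hcard] at h1
  have h2 : Nat.card (centralizer ((S : Subgroup G) : Set G)) *
      (centralizer ((S : Subgroup G) : Set G)).relIndex (normalizer ((S : Subgroup G) : Set G))
      = 456 := by
    omega
  have h3 : 7 ∣ Nat.card (centralizer ((S : Subgroup G) : Set G)) := by
    have h4 := orderOf_dvd_natCard (⟨_, hwC⟩ : centralizer ((S : Subgroup G) : Set G))
    rwa [← Subgroup.orderOf_coe, hw] at h4
  have h5 : 7 ∣ 456 := h2 ▸ (dvd_mul_of_dvd_left h3 _)
  omega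

/-- sum of an irreducible character over the non-identity elements of a Sylow subgroup. -/
theorem sum_erase {p : ℕ} [Fact p.Prime] (P : Sylow p G) [Fintype ↥(P : Subgroup G)]
    [DecidableEq ↥(P : Subgroup G)] (χ : IrrCharacter G) :
    ∃ k : ℕ, ∑ y ∈ Finset.univ.erase (1 : ↥(P : Subgroup G)), (χ : G → ℂ) y
      = (((Nat.card ↥(P : Subgroup G) : ℤ) * k - charDegree (χ : G → ℂ) : ℤ) : ℂ) := by
  obtain ⟨k, hk⟩ := sum_res P χ
  refine ⟨k, ?_⟩
  have h1 := Finset.add_sum_erase Finset.univ (fun y : ↥(P : Subgroup G) => (χ : G → ℂ) y)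
    (Finset.mem_univ 1)
  rw [hk] at h1
  push_cast
  rw [charDegree_castC, ← h1]
  simp

omit [Fintype G] in
theorem orderOf_eq_of_mem [Finite G] {p : ℕ} [Fact p.Prime] (P : Sylow p G)
    (hP : Nat.card (P : Subgroup G) = p) (x : ↥(P : Subgroup G)) (hx : x ≠ 1) :
    orderOf (x : G) = p := by
  have hp : p.Prime := Fact.out
  have h1 := orderOf_dvd_natCard x
  rw [hP] at h1
  rw [Subgroup.orderOf_coe]
  rcases (Nat.dvd_prime hp).mp h1 with h | h
  · exact absurd (orderOf_eq_one_iff.mp h) hx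
  · exact h

theorem final [IsSimpleGroup G] (hcard : Nat.card G = 459648) : False := by
  classical
  have : Fact (Nat.Prime 19) := ⟨by norm_num⟩
  have : Fact (Nat.Prime 7) := ⟨by norm_num⟩
  have hG : ¬ IsMulCommutative G := not_comm_of_not_prime (by rw [hcard]; norm_num)
  obtain ⟨M, hM⟩ := Cfsg.Agent.Lib.Helper81ClassMul.exists_modular (p := 19) (by norm_num)
  obtain ⟨M', hM'⟩ := Cfsg.Agent.Lib.Helper81ClassMul.exists_modular (p := 7) (by norm_num)
  have := hM.2.1.isPrime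
  have := hM'.2.1.isPrime
  obtain ⟨P⟩ : Nonempty (Sylow 19 G) := inferInstance
  obtain ⟨Q⟩ : Nonempty (Sylow 7 G) := inferInstance
  obtain ⟨hn, A, Y, hA2, hB, hA, hY, hYag⟩ := stage1 hcard M hM P
  have hno := no133 hcard hn
  have hP : Nat.card (P : Subgroup G) = 19 := by
    have := (sylow_card_index (p := 19) (a := 1) (m := 24192) (by rw [hcard]; norm_num)
      (by norm_num) P).1
    simpa using this
  have hQ : Nat.card (Q : Subgroup G) = 7 := by
    have := (sylow_card_index (p := 7) (a := 1) (m := 65664) (by rw [hcard]; norm_num)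
      (by norm_num) Q).1
    simpa using this
  obtain ⟨X7, Y7, hXY7, hdisj7, hXc7, hYc7, εX7, ε7, hX7, hε7, hYdeg7, hYag7, hYsum7⟩ :=
    Cfsg.Agent.S4441.result 7 M' hM' (by norm_num) Q hQ _ rfl
  have h1reg : ¬ 7 ∣ orderOf (1 : G) := by rw [orderOf_one]; norm_num
  -- members of both principal blocks
  have hS : ∀ χ, χ ∈ principalBlock M G → χ ∈ principalBlock M' G → χ ≠ irrOne G →
      χ ∈ Y7 ∧ (χ ∈ A ∨ χ ∈ Y) := by
    intro χ h19 h7 h1
    have hnd := not_dvd_deg hM' Q hQ χ h7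
    have hAY : χ ∈ A ∨ χ ∈ Y := by
      rcases hB χ h19 with h | h | h | h
      · exact absurd h h1
      · exact absurd h hnd
      · exact Or.inl h
      · exact Or.inr h
    refine ⟨?_, hAY⟩
    rw [hXY7] at h7
    rcases h7 with h7 | h7
    · exfalso
      obtain ⟨h2, h3, -⟩ := hX7 χ h7
      unfold Int.ModEq at h3
      rcases hAY with h | h
      · rw [(hA χ h).1] at h3
        rcases h2 with h2 | h2 <;> rw [h2] at h3 <;> omega
      · rw [hY χ h] at h3
        rcases h2 with h2 | h2 <;> rw [h2] at h3 <;> omega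
    · exact h7
  let _ : Fintype ↥(P : Subgroup G) := Fintype.ofFinite _
  let _ : Fintype ↥(Q : Subgroup G) := Fintype.ofFinite _
  choose kP hkP using fun χ => sum_erase P χ
  choose kQ hkQ using fun χ => sum_erase Q χ
  rw [hP] at hkP
  rw [hQ] at hkQ
  have hR : ∀ x : ↥(P : Subgroup G), x ≠ 1 → ∀ z : ↥(Q : Subgroup G), z ≠ 1 →
      ∑ χ : IrrCharacter G, (if χ ∈ principalBlock M G then (if χ ∈ principalBlock M' G then
        conj ((χ : G → ℂ) x) * conj ((χ : G → ℂ) z) else 0) else 0) = 0 := by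
    intro x hx z hz
    exact Cfsg.Agent.Lib.Helper25Tuan.double_orth hM hM'
      Cfsg.Agent.Lib.Helper81Subsec2.isPBlock_principalBlock
      Cfsg.Agent.Lib.Helper81Subsec2.isPBlock_principalBlock
      (by rw [orderOf_eq_of_mem P hP x hx]) (by rw [orderOf_eq_of_mem Q hQ z hz]) hno
  have hsum : ∑ x ∈ Finset.univ.erase (1 : ↥(P : Subgroup G)),
      ∑ z ∈ Finset.univ.erase (1 : ↥(Q : Subgroup G)),
      ∑ χ : IrrCharacter G, (if χ ∈ principalBlock M G then (if χ ∈ principalBlock M' G then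
        conj ((χ : G → ℂ) x) * conj ((χ : G → ℂ) z) else 0) else 0) = 0 :=
    Finset.sum_eq_zero fun x hx => Finset.sum_eq_zero fun z hz =>
      hR x (Finset.ne_of_mem_erase hx) z (Finset.ne_of_mem_erase hz)
  have hstar : ∑ χ : IrrCharacter G, (if χ ∈ principalBlock M G then
      (if χ ∈ principalBlock M' G then
        (19 * (kP χ : ℤ) - charDegree (χ : G → ℂ)) * (7 * (kQ χ : ℤ) - charDegree (χ : G → ℂ))
        else 0) else 0) = 0 := by
    have h1 : ((∑ χ : IrrCharacter G, (if χ ∈ principalBlock M G then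
      (if χ ∈ principalBlock M' G then
        (19 * (kP χ : ℤ) - charDegree (χ : G → ℂ)) * (7 * (kQ χ : ℤ) - charDegree (χ : G → ℂ))
        else 0) else 0) : ℤ) : ℂ) = 0 := by
      rw [← hsum]
      simp_rw [Finset.sum_comm (s := Finset.univ.erase (1 : ↥(Q : Subgroup G)))]
      rw [Finset.sum_comm]
      rw [Int.cast_sum]
      apply Finset.sum_congr rfl
      intro χ _
      by_cases h19 : χ ∈ principalBlock M G
      · by_cases h7 : χ ∈ principalBlock M' G
        · simp only [if_pos h19, if_pos h7]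
          rw [← Finset.sum_mul_sum, ← map_sum, ← map_sum, hkP, hkQ, map_intCast, map_intCast]
          push_cast
          ring
        · simp [h19, h7]
      · simp [h19]
    exact_mod_cast h1
  have hcP : (Finset.univ.erase (1 : ↥(P : Subgroup G))).card = 18 := by
    rw [Finset.card_erase_of_mem (Finset.mem_univ _), Finset.card_univ,
      ← Nat.card_eq_fintype_card, hP]
  have hcQ : (Finset.univ.erase (1 : ↥(Q : Subgroup G))).card = 6 := by
    rw [Finset.card_erase_of_mem (Finset.mem_univ _), Finset.card_univ,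
      ← Nat.card_eq_fintype_card, hQ]
  have h1P : 19 * (kP (irrOne G) : ℤ) - charDegree ((irrOne G : IrrCharacter G) : G → ℂ) = 18 := by
    have h1 := hkP (irrOne G)
    have h2 : ∑ y ∈ Finset.univ.erase (1 : ↥(P : Subgroup G)),
        ((irrOne G : IrrCharacter G) : G → ℂ) y = 18 := by
      simp [irrOne, hcP]
    rw [h2] at h1
    exact_mod_cast h1.symm
  have h1Q : 7 * (kQ (irrOne G) : ℤ) - charDegree ((irrOne G : IrrCharacter G) : G → ℂ) = 6 := by
    have h1 := hkQ (irrOne G)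
    have h2 : ∑ y ∈ Finset.univ.erase (1 : ↥(Q : Subgroup G)),
        ((irrOne G : IrrCharacter G) : G → ℂ) y = 6 := by
      simp [irrOne, hcQ]
    rw [h2] at h1
    exact_mod_cast h1.symm
  have hAP : ∀ χ ∈ A, 19 * (kP χ : ℤ) - charDegree (χ : G → ℂ) = 18 := by
    intro χ hχ
    have h1 := hkP χ
    have h2 : ∑ y ∈ Finset.univ.erase (1 : ↥(P : Subgroup G)), (χ : G → ℂ) y = 18 := by
      rw [Finset.sum_congr rfl (g := fun _ => (1 : ℂ))]
      · simp [hcP]
      · intro y hy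
        exact (hA χ hχ).2 y y.2 (fun h => Finset.ne_of_mem_erase hy (Subtype.ext h))
    rw [h2] at h1
    exact_mod_cast h1.symm
  obtain ⟨S', hS'⟩ : ∃ S' : Finset (IrrCharacter G), S' = (Finset.univ.erase (irrOne G)).filter
      (fun χ => χ ∈ principalBlock M G ∧ χ ∈ principalBlock M' G) := ⟨_, rfl⟩
  have hmemS' : ∀ χ, χ ∈ S' ↔ χ ≠ irrOne G ∧ χ ∈ principalBlock M G ∧ χ ∈ principalBlock M' G := by
    intro χ
    rw [hS']
    simp
  have hstar' : 108 + ∑ χ ∈ S',
      (19 * (kP χ : ℤ) - charDegree (χ : G → ℂ)) * (7 * (kQ χ : ℤ) - charDegree (χ : G → ℂ))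
      = 0 := by
    rw [← Finset.add_sum_erase Finset.univ _ (Finset.mem_univ (irrOne G)),
      if_pos (show irrOne G ∈ principalBlock M G from
        Cfsg.Agent.Lib.Helper81Block.sameBlock_refl _),
      if_pos (show irrOne G ∈ principalBlock M' G from
        Cfsg.Agent.Lib.Helper81Block.sameBlock_refl _), h1P, h1Q] at hstar
    rw [hS', Finset.sum_filter]
    simp only [ite_and]
    linarith
  have hSY7 : ∀ χ ∈ S', χ ∈ Y7 ∧ (χ ∈ A ∨ χ ∈ Y) := by
    intro χ hχ
    obtain ⟨h1, h2, h3⟩ := (hmemS' χ).mp hχ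
    exact hS χ h2 h3 h1
  have hdegeq : ∀ χ ∈ S', ∀ ψ ∈ S', charDegree (χ : G → ℂ) = charDegree (ψ : G → ℂ) := by
    intro χ hχ ψ hψ
    have h1 := hYag7 χ (hSY7 χ hχ).1 ψ (hSY7 ψ hψ).1 1 h1reg
    rw [← charDegree_castC, ← charDegree_castC] at h1
    exact_mod_cast h1
  by_cases hEx : ∃ χ0 ∈ S', χ0 ∈ A
  · obtain ⟨χ0, hχ0, hχ0A⟩ := hEx
    have hsub : S' ⊆ A := by
      intro χ hχ
      rcases (hSY7 χ hχ).2 with h | h
      · exact h
      · exfalso
        have h1 := hdegeq χ hχ χ0 hχ0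
        rw [hY χ h, (hA χ0 hχ0A).1] at h1
        omega
    have hcardS : S'.card ≤ 2 := hA2 ▸ Finset.card_le_card hsub
    have h1 : ∑ χ ∈ S',
      (19 * (kP χ : ℤ) - charDegree (χ : G → ℂ)) * (7 * (kQ χ : ℤ) - charDegree (χ : G → ℂ))
      = 126 * ∑ χ ∈ S', (kQ χ : ℤ) - 1728 * S'.card := by
      rw [Finset.mul_sum, Finset.card_eq_sum_ones, Nat.cast_sum, Finset.mul_sum,
        ← Finset.sum_sub_distrib]
      apply Finset.sum_congr rfl
      intro χ hχ
      rw [hAP χ (hsub hχ), (hA χ (hsub hχ)).1]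
      push_cast
      ring
    rw [h1] at hstar'
    omega
  · push Not at hEx
    have hsub : ∀ χ ∈ S', χ ∈ Y := fun χ hχ => (hSY7 χ hχ).2.resolve_left (hEx χ hχ)
    have huniq : ∀ χ ∈ S', ∀ ψ ∈ S', χ = ψ := by
      intro χ hχ ψ hψ
      apply Subtype.ext
      funext g
      by_cases hg : 19 ∣ orderOf g
      · exact hYag7 χ (hSY7 χ hχ).1 ψ (hSY7 ψ hψ).1 g (hno g hg)
      · exact hYag χ (hsub χ hχ) ψ (hsub ψ hψ) g hg
    rcases S'.eq_empty_or_nonempty with hemp | ⟨θ, hθ⟩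
    · rw [hemp] at hstar'
      simp at hstar'
    · have hsing : S' = {θ} :=
        Finset.eq_singleton_iff_unique_mem.mpr ⟨hθ, fun ψ hψ => huniq ψ hψ θ hθ⟩
      rw [hsing, Finset.sum_singleton, hY θ (hsub θ hθ)] at hstar'
      apply arith_final (kP θ) (kQ θ)
      push_cast at hstar'
      linarith

end grp

end Cfsg.Agent.Lib.Helper25O459
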