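import Mathlib
import Cfsg.Agent.Lib.Helper59BSQ8
import Cfsg.Agent.Lib.Helper87Sylow
import Cfsg.Agent.S4456
import Cfsg.Agent.S3225

set_option autoImplicit false

/-! Fusion in a group with quaternion Sylow 2-subgroups of order 8. -/

namespace Cfsg.Agent.Lib.Helper25Q8Fus

open Cfsg QuaternionGroup
open Cfsg.Agent.Lib.Helper59BSQ8 Cfsg.Agent.Lib.Helper59BSGrp Cfsg.Agent.Lib.Helper87Sylow

variable {G : Type*} [Group G]

/-- elements of a subgroup isomorphic to `Q8` -/
theorem q8_facts (S : Subgroup G) (e : S ≃* QuaternionGroup 2) :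
    ∃ t ∈ S, orderOf t = 2 ∧ ∀ s ∈ S, s = 1 ∨ s = t ∨ (orderOf s = 4 ∧ s ^ 2 = t) := by
  have h2 : orderOf (a 2 : QuaternionGroup 2) = 2 := orderOf_eq_prime F4.1 F4.2.1
  refine ⟨(e.symm (a 2) : G), (e.symm _).2, ?_, ?_⟩
  · rw [Subgroup.orderOf_coe, MulEquiv.orderOf_eq, h2]
  · intro s hs
    rcases F1 (e ⟨s, hs⟩) with h | h | h
    · left
      have : (⟨s, hs⟩ : S) = 1 := by rw [← e.map_eq_one_iff]; exact h
      exact congrArg Subtype.val this
    · right; left
      rw [← h, MulEquiv.symm_apply_apply]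
    · right; right
      have h3 : s ^ 2 = (e.symm (a 2) : G) := by
        rw [← h, ← map_pow, MulEquiv.symm_apply_apply]; rfl
      refine ⟨?_, h3⟩
      have h4 : orderOf (s ^ 2) = 2 := by
        rw [h3, Subgroup.orderOf_coe, MulEquiv.orderOf_eq, h2]
      have := orderOf_eq_prime_pow (p := 2) (n := 1) (x := s)
        (by
          rw [pow_one]
          intro h5
          rw [h5, orderOf_one] at h4
          omega)
        (by
          show s ^ 2 ^ 2 = 1
          rw [pow_two 2, pow_mul]
          have h5 := pow_orderOf_eq_one (s ^ 2)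
          rwa [h4] at h5)
      simpa using this

theorem sub4 [Finite G] {S : Subgroup G} {t : G} (ht : orderOf t = 2)
    (hS : ∀ s ∈ S, s = 1 ∨ s = t ∨ (orderOf s = 4 ∧ s ^ 2 = t))
    (A : Subgroup G) (hA : A ≤ S) (hA4 : Nat.card A = 4) :
    ∃ x ∈ A, orderOf x = 4 ∧ A = Subgroup.zpowers x ∧ t ∈ A := by
  by_cases h : ∃ x ∈ A, orderOf x = 4
  · obtain ⟨x, hx, ho⟩ := h
    refine ⟨x, hx, ho, ?_, ?_⟩
    · symm
      apply Subgroup.eq_of_le_of_card_ge (Subgroup.zpowers_le.2 hx)
      rw [Nat.card_zpowers, ho, hA4]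
    · rcases hS x (hA hx) with h1 | h1 | h1
      · rw [h1, orderOf_one] at ho; omega
      · rw [h1, ht] at ho; omega
      · rw [← h1.2]; exact Subgroup.pow_mem _ hx _
  · exfalso
    push Not at h
    have hle : A ≤ Subgroup.zpowers t := by
      intro x hx
      rcases hS x (hA hx) with h1 | h1 | h1
      · rw [h1]; exact Subgroup.one_mem _
      · rw [h1]; exact Subgroup.mem_zpowers _
      · exact absurd h1.1 (h x hx)
    have := Subgroup.card_le_of_le hle
    rw [hA4, Nat.card_zpowers, ht] at this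
    omega

variable [Finite G]

/-- a group with quaternion Sylow 2-subgroup of order 8 without normal complement has no subgroup
of index 2 -/
theorem no_index_two (S : Sylow 2 G) (e : (S : Subgroup G) ≃* QuaternionGroup 2)
    (hnc : ∀ N : Subgroup G, N.Normal → ¬ Subgroup.IsComplement' N (S : Subgroup G))
    (H : Subgroup G) : H.index ≠ 2 := by
  intro hH
  have : Fact (Nat.Prime 2) := ⟨Nat.prime_two⟩
  have hHn : H.Normal := Subgroup.normal_of_index_eq_two hH
  obtain ⟨t, htS, ht, hS⟩ := q8_facts (S : Subgroup G) e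
  have hcardS : Nat.card (S : Subgroup G) = 8 := by
    rw [Nat.card_congr e.toEquiv, Nat.card_eq_fintype_card, QuaternionGroup.card]
  have hfG : (Nat.card G).factorization 2 = 3 := by
    have h1 := S.card_eq_multiplicity
    rw [hcardS] at h1
    exact (Nat.pow_right_injective (le_refl 2) (by simpa using h1)).symm
  have hfH : (Nat.card H).factorization 2 = 2 := by
    have h1 := H.card_mul_index
    rw [hH] at h1
    rw [← h1, Nat.factorization_mul Nat.card_pos.ne' (by norm_num), Finsupp.add_apply,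
      Nat.Prime.factorization_self Nat.prime_two] at hfG
    omega
  let Q : Sylow 2 H := default
  have hQ4 : Nat.card Q = 4 := by
    have := Q.card_eq_multiplicity
    rw [hfH] at this
    simpa using this
  have hQc : IsCyclic Q := by
    obtain ⟨h, hh⟩ := exists_conj_le S ((Q : Subgroup H).map H.subtype) (Q.2.map _)
    by_cases hex : ∃ q : Q, orderOf q = 4
    · obtain ⟨q, hq⟩ := hex
      exact isCyclic_of_orderOf_eq_card q (by rw [hq, hQ4])
    · exfalso
      push Not at hex
      have hmem : ∀ q : Q, h * ((q : H) : G) * h⁻¹ ∈ Subgroup.zpowers t := by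
        intro q
        have h1 := hh ((q : H) : G) ⟨(q : H), q.2, rfl⟩
        rcases hS _ h1 with h2 | h2 | h2
        · rw [h2]; exact Subgroup.one_mem _
        · rw [h2]; exact Subgroup.mem_zpowers _
        · exfalso
          apply hex q
          rw [← Subgroup.orderOf_coe, ← Subgroup.orderOf_coe, ← orderOf_conj' h]
          exact h2.1
      have hinj : Function.Injective
          (fun q : Q => (⟨h * ((q : H) : G) * h⁻¹, hmem q⟩ : Subgroup.zpowers t)) := by
        intro q r hqr
        have h1 : h * ((q : H) : G) * h⁻¹ = h * ((r : H) : G) * h⁻¹ := congrArg Subtype.val hqr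
        have h2 : ((q : H) : G) = ((r : H) : G) := by simpa using h1
        exact Subtype.ext (Subtype.ext h2)
      have := Nat.card_le_card_of_injective _ hinj
      rw [Nat.card_zpowers, ht] at this
      have h4 : (4 : ℕ) ≤ 2 := le_trans (le_of_eq hQ4.symm) this
      omega
  have hmin : (Nat.card H).minFac = 2 := by
    rw [Nat.minFac_eq_two_iff]
    have : 2 ^ 2 ∣ Nat.card H := by
      have h1 := Nat.ordProj_dvd (Nat.card H) 2
      rwa [hfH] at h1
    exact Dvd.dvd.trans (by norm_num) this
  have hnpc : HasNormalPComplement 2 H :=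
    ⟨Q, _, MonoidHom.normal_ker _, IsCyclic.isComplement' hmin hQc⟩
  obtain ⟨K, hKn, hKc, k, hk⟩ := Cfsg.Agent.S4456.complement_of_normal 2 H ⟨1, by rw [hH, pow_one]⟩ hnpc
  apply hnc K hKn
  apply Subgroup.isComplement'_of_coprime
  · have h1 := K.card_mul_index
    rw [hk] at h1
    have h2 : k = 3 := by
      rw [← h1, Nat.factorization_mul Nat.card_pos.ne' (by positivity), Finsupp.add_apply,
        Nat.factorization_eq_zero_of_not_dvd
          (fun hd => (Nat.Prime.coprime_iff_not_dvd Nat.prime_two).1 hKc.symm hd),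
        Nat.Prime.factorization_pow Nat.prime_two] at hfG
      simpa using hfG
    rw [hcardS, ← h1, h2]; norm_num
  · rw [hcardS]
    exact Nat.Coprime.pow_right 3 hKc

omit [Finite G] in
theorem cj_eq_of_mem_normalizer {c : G} {B : Subgroup G}
    (hc : c ∈ Subgroup.normalizer (B : Set G)) : cj c B = B := by
  ext y
  rw [mem_cj]
  have h1 := (Subgroup.mem_normalizer_iff.1 hc) (c⁻¹ * y * c)
  have e1 : c * (c⁻¹ * y * c) * c⁻¹ = y := by group
  rw [e1] at h1
  exact h1

theorem mem_normalizer_of_cj_le {c : G} {B : Subgroup G} (h : cj c B ≤ B) :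
    c ∈ Subgroup.normalizer (B : Set G) := by
  have heq : cj c B = B := Subgroup.eq_of_le_of_card_ge h (by rw [card_cj])
  rw [Subgroup.mem_normalizer_iff]
  intro y
  constructor
  · intro hy
    rw [← heq]; exact conj_mem_cj hy
  · intro hy
    rw [← heq, mem_cj] at hy
    have e1 : c⁻¹ * (c * y * c⁻¹) * c = y := by group
    rwa [e1] at hy

theorem le_normalizer_of_card {S A : Subgroup G} (hA : A ≤ S) (h : Nat.card S = 2 * Nat.card A) :
    S ≤ Subgroup.normalizer (A : Set G) := by
  rw [← Subgroup.normal_subgroupOf_iff_le_normalizer hA]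
  apply Subgroup.normal_of_index_eq_two
  have h1 := (A.subgroupOf S).card_mul_index
  rw [card_subgroupOf_of_le hA, h, mul_comm] at h1
  exact Nat.eq_of_mul_eq_mul_right Nat.card_pos h1

/-- all subgroups of order 4 are conjugate under the normalizer -/
theorem conj_sub4 (S : Sylow 2 G) (e : (S : Subgroup G) ≃* QuaternionGroup 2)
    (hnc : ∀ N : Subgroup G, N.Normal → ¬ Subgroup.IsComplement' N (S : Subgroup G))
    (A B : Subgroup G) (hA : A ≤ S) (hB : B ≤ S) (hA4 : Nat.card A = 4) (hB4 : Nat.card B = 4) :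
    ∃ n ∈ Subgroup.normalizer ((S : Subgroup G) : Set G), B = A.map (MulAut.conj n).toMonoidHom := by
  have : Fact (Nat.Prime 2) := ⟨Nat.prime_two⟩
  obtain ⟨t, htS, ht, hS⟩ := q8_facts (S : Subgroup G) e
  have hcardS : Nat.card (S : Subgroup G) = 8 := by
    rw [Nat.card_congr e.toEquiv, Nat.card_eq_fintype_card, QuaternionGroup.card]
  obtain ⟨x, hxA, hx4, hAx, -⟩ := sub4 ht hS A hA hA4
  obtain ⟨y, hyB, hy4, hBy, htB⟩ := sub4 ht hS B hB hB4
  have hev : Even (Nat.card G) := by
    have := (S : Subgroup G).card_subgroup_dvd_card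
    rw [hcardS] at this
    exact even_iff_two_dvd.mpr (Dvd.dvd.trans (by norm_num) this)
  have hrel : B.relIndex (S : Subgroup G) = 2 := by
    have h1 := (B.subgroupOf (S : Subgroup G)).card_mul_index
    rw [card_subgroupOf_of_le hB, hB4, hcardS] at h1
    show (B.subgroupOf (S : Subgroup G)).index = 2
    omega
  obtain ⟨g, hg⟩ := Cfsg.Agent.S3225.result hev (no_index_two S e hnc) S B hB hrel 2 (by norm_num)
    (by
      intro u hu huB
      rcases hS u hu with h1 | h1 | h1
      · exact absurd (h1 ▸ B.one_mem) huB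
      · exact absurd (h1 ▸ htB) huB
      · rw [h1.1]; norm_num)
    x (hA hxA) (by rw [hx4]; norm_num)
  have hgA : cj g A = B := by
    apply Subgroup.eq_of_le_of_card_ge
    · rw [hAx]
      rintro _ ⟨u, hu, rfl⟩
      obtain ⟨k, rfl⟩ := Subgroup.mem_zpowers_iff.1 hu
      show g * x ^ k * g⁻¹ ∈ B
      rw [← conj_zpow]
      exact Subgroup.zpow_mem _ hg _
    · rw [card_cj, hA4, hB4]
  have hSA : (S : Subgroup G) ≤ Subgroup.normalizer (A : Set G) :=
    le_normalizer_of_card hA (by rw [hcardS, hA4])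
  have hSB : (S : Subgroup G) ≤ Subgroup.normalizer (B : Set G) :=
    le_normalizer_of_card hB (by rw [hcardS, hB4])
  have hsyl : SylIn 2 (S : Subgroup G) (Subgroup.normalizer (B : Set G)) :=
    (sylow_sylIn S).of_le hSB le_top
  have hgS : cj g (S : Subgroup G) ≤ Subgroup.normalizer (B : Set G) := by
    rw [← hgA, ← cj_normalizer]
    exact cj_mono hSA
  obtain ⟨c, hc, hcS⟩ := hsyl.exists_conj_le hgS (isPGroup_cj S.2)
  rw [cj_cj] at hcS
  refine ⟨c * g, mem_normalizer_of_cj_le hcS, ?_⟩
  show B = cj (c * g) A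
  rw [← cj_cj, hgA, cj_eq_of_mem_normalizer hc]

end Cfsg.Agent.Lib.Helper25Q8Fus
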