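import Mathlib
import Cfsg.Agent.Lib.Helper25Q8Count
import Cfsg.Agent.Lib.Helper25Q8Fus
import Cfsg.Agent.Lib.Helper82Quot
import Cfsg.Agent.S0941
import Cfsg.Agent.S0942

set_option autoImplicit false

/-! The principal 2-block of a group with quaternion Sylow 2-subgroups of order 8 and `O(G) = 1`
has seven characters (modulo Brauer-Suzuki and the Klein four case, taken as hypotheses). -/

namespace Cfsg.Agent.Lib.Helper25Q8Block

open Cfsg QuaternionGroup
open Cfsg.Agent.Lib.Helper59BSQ8 Cfsg.Agent.Lib.Helper59BSGrp Cfsg.Agent.Lib.Helper87Sylow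
  Cfsg.Agent.Lib.Helper25Q8Fus Cfsg.Agent.Lib.Helper25Q8Count Cfsg.Agent.Lib.Helper82Quot
  Cfsg.Agent.Lib.Helper82Linear Cfsg.Agent.Lib.Helper81Base

universe u

variable {G : Type u} [Group G] [Finite G]

omit [Finite G] in
/-- odd order elements of `C(y)` lie in `O(C(y))` if the latter has 2-power index -/
theorem mem_core_of_odd {p : ℕ} [Fact p.Prime] (y v : G) (hc : Commute y v) (hv : ¬ p ∣ orderOf v)
    (hidx : ∃ k : ℕ, (pPrimeCore p (Subgroup.centralizer ({y} : Set G))).index = p ^ k) :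
    v ∈ centralizerPPrimeCore p y := by
  obtain ⟨k, hk⟩ := hidx
  have hvC : v ∈ Subgroup.centralizer ({y} : Set G) :=
    Subgroup.mem_centralizer_singleton_iff.mpr hc.symm.eq
  set K := pPrimeCore p (Subgroup.centralizer ({y} : Set G)) with hK
  have hKn : K.Normal := Cfsg.Agent.Lib.Helper1Fitting.pPrimeCore_normal p
  refine ⟨⟨v, hvC⟩, ?_, rfl⟩
  set w : Subgroup.centralizer ({y} : Set G) := ⟨v, hvC⟩ with hw
  have hwo : orderOf w = orderOf v := by rw [← Subgroup.orderOf_coe]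
  show w ∈ K
  rw [← QuotientGroup.eq_one_iff]
  have h1 : orderOf ((w : Subgroup.centralizer ({y} : Set G) ⧸ K)) ∣ orderOf w :=
    orderOf_map_dvd (QuotientGroup.mk' K) w
  have h2 : orderOf ((w : Subgroup.centralizer ({y} : Set G) ⧸ K)) ∣ p ^ k := by
    rw [← hk, Subgroup.index_eq_card]
    exact orderOf_dvd_natCard _
  obtain ⟨j, _, hj⟩ := (Nat.dvd_prime_pow Fact.out).mp h2
  rcases Nat.eq_zero_or_pos j with rfl | hj0
  · rw [pow_zero] at hj
    exact orderOf_eq_one_iff.mp hj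
  · exfalso
    apply hv
    rw [← hwo]
    exact (dvd_pow_self p hj0.ne').trans (hj ▸ h1)

/-- the group theoretic set-up -/
theorem setup (S : Sylow 2 G) (e : (S : Subgroup G) ≃* QuaternionGroup 2)
    (hO : ∀ N : Subgroup G, N.Normal → Odd (Nat.card N) → N = ⊥) (hG : (S : Subgroup G) ≠ ⊤)
    (hZ : Nat.card (Subgroup.center G) = 2) :
    ∃ t y : G, (∀ g, g * t = t * g) ∧ orderOf t = 2 ∧ orderOf y = 4 ∧ y ∈ (S : Subgroup G) ∧
      (∀ s ∈ (S : Subgroup G), s = 1 ∨ s = t ∨ (orderOf s = 4 ∧ s ^ 2 = t ∧ IsConj s y)) ∧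
      (∀ u : G, orderOf u = 2 → u = t) ∧
      (pPrimeCore 2 (Subgroup.centralizer ({y} : Set G))).index = 4 := by
  have : Fact (Nat.Prime 2) := ⟨Nat.prime_two⟩
  obtain ⟨t, htS, ht, hS⟩ := q8_facts (S : Subgroup G) e
  have hcardS : Nat.card (S : Subgroup G) = 8 := by
    rw [Nat.card_congr e.toEquiv, Nat.card_eq_fintype_card, QuaternionGroup.card]
  have huniq : ∀ u ∈ (S : Subgroup G), orderOf u = 2 → u = t := by
    intro u hu ho
    rcases hS u hu with h | h | h
    · rw [h, orderOf_one] at ho; omega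
    · exact h
    · rw [h.1] at ho; omega
  -- t is central
  obtain ⟨c, hc2⟩ := exists_prime_orderOf_dvd_card' (G := Subgroup.center G) 2 (by rw [hZ])
  have hcc : ∀ g : G, g * (c : G) = (c : G) * g := fun g => Subgroup.mem_center_iff.mp c.2 g
  have hco : orderOf (c : G) = 2 := by rw [Subgroup.orderOf_coe]; exact hc2
  have hinv : ∀ u : G, orderOf u = 2 → ∃ h : G, h * u * h⁻¹ = t := by
    intro u hu
    have hp : IsPGroup 2 (Subgroup.zpowers u) :=
      IsPGroup.of_card (n := 1) (by rw [Nat.card_zpowers, hu, pow_one])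
    obtain ⟨h, hh⟩ := exists_conj_le S _ hp
    exact ⟨h, huniq _ (hh u (Subgroup.mem_zpowers u)) (by rw [orderOf_conj', hu])⟩
  have hct : (c : G) = t := by
    obtain ⟨h, hh⟩ := hinv _ hco
    rw [hcc h, mul_inv_cancel_right] at hh
    exact hh
  have htc : ∀ g, g * t = t * g := by rw [← hct]; exact hcc
  have hall : ∀ u : G, orderOf u = 2 → u = t := by
    intro u hu
    obtain ⟨h, hh⟩ := hinv u hu
    have : u = h⁻¹ * t * h := by rw [← hh]; group
    rw [this, mul_assoc, ← htc h, inv_mul_cancel_left]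
  -- no normal complement
  have hnc : ∀ N : Subgroup G, N.Normal → ¬ Subgroup.IsComplement' N (S : Subgroup G) := by
    intro N hN hcompl
    have h1 : N = ⊥ := by
      apply hO N hN
      have h2 := hcompl.card_mul_card
      have h3 := (S : Subgroup G).card_mul_index
      have h4 : Nat.card N = (S : Subgroup G).index := by
        rw [← h2, mul_comm] at h3
        exact (Nat.eq_of_mul_eq_mul_right Nat.card_pos h3).symm
      rw [h4, ← Nat.not_even_iff_odd, even_iff_two_dvd]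
      exact S.not_dvd_index
    rw [h1, Subgroup.isComplement'_bot_left] at hcompl
    exact hG hcompl
  -- the element y
  set y : G := (e.symm (a 1) : G) with hy
  have hyS : y ∈ (S : Subgroup G) := (e.symm _).2
  have hy2 : y ^ 2 ≠ 1 := by
    intro h
    have h1 : (e.symm (a 1)) ^ 2 = 1 := Subtype.ext h
    rw [← map_pow, F4.2.2, e.symm.map_eq_one_iff] at h1
    exact F4.2.1 h1
  have hy4 : orderOf y = 4 ∧ y ^ 2 = t := by
    rcases hS y hyS with h | h | h
    · exact absurd (by rw [h, one_pow]) hy2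
    · exfalso; apply hy2; rw [h, ← ht]; exact pow_orderOf_eq_one t
    · exact h
  have hyinv : IsConj (y ^ 3) y := by
    rw [isConj_comm, isConj_iff]
    refine ⟨(e.symm (xa 0) : G), ?_⟩
    have h1 : e.symm (xa 0) * e.symm (a 1) * (e.symm (xa 0))⁻¹ = (e.symm (a 1)) ^ 3 := by
      rw [← map_inv, ← map_mul, ← map_mul, F3, map_pow]
    exact congrArg Subtype.val h1
  have hconj : ∀ s ∈ (S : Subgroup G), orderOf s = 4 → IsConj s y := by
    intro s hs ho
    obtain ⟨n, -, hn⟩ := conj_sub4 S e hnc (Subgroup.zpowers s) (Subgroup.zpowers y)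
      (Subgroup.zpowers_le.2 hs) (Subgroup.zpowers_le.2 hyS) (by rw [Nat.card_zpowers, ho])
      (by rw [Nat.card_zpowers, hy4.1])
    have h1 : n * s * n⁻¹ ∈ Subgroup.zpowers y := by
      rw [hn]; exact ⟨s, Subgroup.mem_zpowers s, rfl⟩
    have h2 : orderOf (n * s * n⁻¹) = 4 := by rw [orderOf_conj', ho]
    have h3 : IsConj s (n * s * n⁻¹) := isConj_iff.2 ⟨n, rfl⟩
    obtain ⟨k, hk⟩ := (mem_powers_iff_mem_zpowers.2 h1)
    have hk' : y ^ (k % 4) = n * s * n⁻¹ := by
      rw [← hk, ← hy4.1, pow_mod_orderOf]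
    have hlt : k % 4 < 4 := Nat.mod_lt _ (by norm_num)
    refine h3.trans ?_
    rw [← hk']
    rw [← hk'] at h2
    interval_cases (k % 4)
    · rw [pow_zero, orderOf_one] at h2; omega
    · rw [pow_one]
    · rw [hy4.2, ht] at h2; omega
    · exact hyinv
  refine ⟨t, y, htc, ht, hy4.1, hyS, ?_, hall, ?_⟩
  · intro s hs
    rcases hS s hs with h | h | h
    · exact Or.inl h
    · exact Or.inr (Or.inl h)
    · exact Or.inr (Or.inr ⟨h.1, h.2, hconj s hs h.1⟩)
  · rw [index_core_centralizer S y ⟨2, by rw [hy4.1]; norm_num⟩, hy4.1]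
    intro w hw u hu how hcomm
    have hw2 : (e ⟨w, hw⟩) ^ 2 = a 2 := by
      rcases F1 (e ⟨w, hw⟩) with h | h | h
      · exfalso
        have : (⟨w, hw⟩ : (S : Subgroup G)) = 1 := by rw [← e.map_eq_one_iff]; exact h
        have h5 : w = 1 := congrArg Subtype.val this
        rw [h5, orderOf_one, hy4.1] at how; omega
      · exfalso
        have h5 : orderOf (e ⟨w, hw⟩) = 2 := by rw [h]; exact orderOf_eq_prime F4.1 F4.2.1
        rw [MulEquiv.orderOf_eq, ← Subgroup.orderOf_coe] at h5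
        simp only at h5
        rw [how, hy4.1] at h5; omega
      · exact h
    have hcomm' : e ⟨u, hu⟩ * e ⟨w, hw⟩ = e ⟨w, hw⟩ * e ⟨u, hu⟩ := by
      rw [← map_mul, ← map_mul]
      congr 1
      exact Subtype.ext hcomm
    have key : ∀ q : QuaternionGroup 2, e ⟨u, hu⟩ = q → u = (e.symm q : G) := by
      intro q hq
      rw [← hq, MulEquiv.symm_apply_apply]
    rcases F2 _ _ hw2 hcomm' with h | h | h | h
    · rw [key _ h, map_one]; exact Subgroup.one_mem _
    · rw [key _ h, MulEquiv.symm_apply_apply]; exact Subgroup.mem_zpowers _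
    · rw [key _ h, map_pow, MulEquiv.symm_apply_apply]
      exact Subgroup.pow_mem _ (Subgroup.mem_zpowers _) 2
    · rw [key _ h, map_pow, MulEquiv.symm_apply_apply]
      exact Subgroup.pow_mem _ (Subgroup.mem_zpowers _) 3

theorem h4_of_setup {M : Ideal AlgInt} (hM : IsPModular 2 M) (S : Sylow 2 G) (t y : G)
    (ht : orderOf t = 2) (hy : orderOf y = 4)
    (hS : ∀ s ∈ (S : Subgroup G), s = 1 ∨ s = t ∨ (orderOf s = 4 ∧ s ^ 2 = t ∧ IsConj s y))
    (hidx : (pPrimeCore 2 (Subgroup.centralizer ({y} : Set G))).index = 4)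
    (g : G) (hg : 4 ∣ orderOf g) (ζ : IrrCharacter G) (hζ : ζ ∈ principalBlock M G) :
    (ζ : G → ℂ) g = (ζ : G → ℂ) y := by
  have : Fact (Nat.Prime 2) := ⟨Nat.prime_two⟩
  obtain ⟨x, v, hxv, hcomm, ⟨k, hk⟩, hv⟩ :=
    Cfsg.Agent.Lib.Helper81Orth.exists_ppart (p := 2) Nat.prime_two g
  have hc2 : Nat.Coprime 2 (orderOf v) := (Nat.Prime.coprime_iff_not_dvd Nat.prime_two).2 hv
  have hcop : (orderOf x).Coprime (orderOf v) := by
    rw [hk]; exact Nat.Coprime.pow_left k hc2
  have ho : orderOf g = orderOf x * orderOf v := by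
    rw [← hxv]; exact hcomm.orderOf_mul_eq_mul_orderOf_of_coprime hcop
  have h4x : 4 ∣ orderOf x := by
    rw [ho] at hg
    exact Nat.Coprime.dvd_of_dvd_mul_right (Nat.Coprime.pow_left 2 hc2 : Nat.Coprime (2 ^ 2) _) hg
  have hp : IsPGroup 2 (Subgroup.zpowers x) :=
    IsPGroup.of_card (n := k) (by rw [Nat.card_zpowers, hk])
  obtain ⟨h, hh⟩ := exists_conj_le S _ hp
  have h1 := hh x (Subgroup.mem_zpowers x)
  have hxy : IsConj x y := by
    rcases hS _ h1 with h2 | h2 | h2
    · exfalso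
      have h3 : orderOf (h * x * h⁻¹) = 1 := by rw [h2, orderOf_one]
      rw [orderOf_conj'] at h3
      rw [h3] at h4x
      omega
    · exfalso
      have h3 : orderOf (h * x * h⁻¹) = 2 := by rw [h2, ht]
      rw [orderOf_conj'] at h3
      rw [h3] at h4x
      omega
    · exact (isConj_iff.2 ⟨h, rfl⟩).trans h2.2.2
  obtain ⟨c, hc⟩ := isConj_iff.1 hxy
  have e1 : c * g * c⁻¹ = y * (c * v * c⁻¹) := by rw [← hxv, ← hc]; group
  rw [← irr_conj ζ g c, e1]
  apply Cfsg.Agent.S0942.result 2 M hM y ⟨2, by rw [hy]; norm_num⟩ _ _ ζ hζ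
  apply mem_core_of_odd y _ _ (by rw [orderOf_conj']; exact hv) ⟨2, by rw [hidx]; norm_num⟩
  rw [← hc]
  show c * x * c⁻¹ * (c * v * c⁻¹) = c * v * c⁻¹ * (c * x * c⁻¹)
  have e2 : c * x * c⁻¹ * (c * v * c⁻¹) = c * (x * v) * c⁻¹ := by group
  have e3 : c * v * c⁻¹ * (c * x * c⁻¹) = c * (v * x) * c⁻¹ := by group
  rw [e2, e3, hcomm.eq]

omit [Finite G] in
theorem h2_of_setup (t : G) (htc : ∀ g, g * t = t * g) (ht : orderOf t = 2)
    (hall : ∀ u : G, orderOf u = 2 → u = t) (g : G) (h2 : 2 ∣ orderOf g)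
    (h4 : ¬ 4 ∣ orderOf g) : ¬ 2 ∣ orderOf (t * g) := by
  obtain ⟨m, hm⟩ := h2
  have htt : t ^ 2 = 1 := by rw [← ht]; exact pow_orderOf_eq_one t
  have hmodd : ¬ 2 ∣ m := by
    rintro ⟨r, hr⟩
    apply h4
    rw [hm, hr]
    exact ⟨r, by ring⟩
  have hm0 : m ≠ 0 := by
    rintro rfl
    exact hmodd (dvd_zero 2)
  have hgm : orderOf (g ^ m) = 2 := by
    rw [orderOf_pow_of_dvd hm0 ⟨2, by rw [hm]; ring⟩, hm,
      Nat.mul_div_cancel _ (Nat.pos_of_ne_zero hm0)]
  have hgt : g ^ m = t := hall _ hgm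
  have htm : t ^ m = t := by
    obtain ⟨r, hr⟩ := Nat.odd_iff.2 (Nat.two_dvd_ne_zero.1 hmodd)
    rw [hr, pow_succ, pow_mul, htt, one_pow, one_mul]
  have h5 : (t * g) ^ m = 1 := by
    have hc : Commute t g := (htc g).symm
    rw [hc.mul_pow, htm, hgt, ← sq, htt]
  intro hd
  exact hmodd (hd.trans (orderOf_dvd_of_pow_eq_one h5))

/-- characters of the principal block with a central `2`-subgroup in the kernel -/
theorem card_plus {M : Ideal AlgInt} (hM : IsPModular 2 M) (N : Subgroup G) [N.Normal]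
    (hNp : IsPGroup 2 N) (hNc : N ≤ Subgroup.center G) :
    Nat.card {ζ : IrrCharacter G // ζ ∈ principalBlock M G ∧
      ∀ n ∈ N, (ζ : G → ℂ) n = (ζ : G → ℂ) 1} = Nat.card (principalBlock M (G ⧸ N)) := by
  have : Fact (Nat.Prime 2) := ⟨Nat.prime_two⟩
  have hC : ∃ k : ℕ, (Subgroup.centralizer (N : Set G)).index = 2 ^ k := by
    refine ⟨0, ?_⟩
    rw [Subgroup.centralizer_eq_top_iff_subset.2 hNc, Subgroup.index_top, pow_zero]
  have key : ∀ ψ : IrrCharacter (G ⧸ N),
      ψ ∈ principalBlock M (G ⧸ N) ↔ inflate N ψ ∈ principalBlock M G :=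
    fun ψ => (Cfsg.Agent.S0941.result 2 M hM N hNp hC).1 (irrOne (G ⧸ N)) ψ
  symm
  apply Nat.card_congr
  refine Equiv.ofBijective (fun ψ : principalBlock M (G ⧸ N) =>
    (⟨inflate N ψ.1, (key ψ.1).1 ψ.2, fun _ hn => inflate_ker N ψ.1 hn⟩ :
      {ζ : IrrCharacter G // ζ ∈ principalBlock M G ∧
        ∀ n ∈ N, (ζ : G → ℂ) n = (ζ : G → ℂ) 1})) ⟨?_, ?_⟩
  · intro ψ₁ ψ₂ h
    exact Subtype.ext (inflate_injective N (congrArg Subtype.val h))
  · rintro ⟨ζ, hζ, hker⟩
    obtain ⟨ψ, hψ⟩ := exists_deflate N ζ hker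
    exact ⟨⟨ψ, (key ψ).2 (hψ ▸ hζ)⟩, Subtype.ext hψ⟩

/-- the quotient by the central involution has Klein four Sylow subgroups and one class of
involutions -/
theorem quotient_klein (S : Sylow 2 G) (hcardS : Nat.card (S : Subgroup G) = 8) (t y : G)
    (ht : orderOf t = 2) (N : Subgroup G) [N.Normal] (hN : N = Subgroup.zpowers t)
    (hS : ∀ s ∈ (S : Subgroup G), s = 1 ∨ s = t ∨ (orderOf s = 4 ∧ s ^ 2 = t ∧ IsConj s y)) :
    ∃ P : Sylow 2 (G ⧸ N), IsKleinFour (P : Subgroup (G ⧸ N)) ∧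
      ∀ s r : G ⧸ N, orderOf s = 2 → orderOf r = 2 → IsConj s r := by
  have : Fact (Nat.Prime 2) := ⟨Nat.prime_two⟩
  have htN : t ∈ N := by rw [hN]; exact Subgroup.mem_zpowers t
  let P : Sylow 2 (G ⧸ N) := S.mapSurjective (QuotientGroup.mk'_surjective N)
  have hPmem : ∀ x ∈ (P : Subgroup (G ⧸ N)), ∃ s ∈ (S : Subgroup G), QuotientGroup.mk' N s = x := by
    intro x hx
    exact hx
  have hfG : (Nat.card G).factorization 2 = 3 := by
    have h1 := S.card_eq_multiplicity
    rw [hcardS] at h1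
    exact (Nat.pow_right_injective (le_refl 2) (by simpa using h1)).symm
  have hfQ : (Nat.card (G ⧸ N)).factorization 2 = 2 := by
    have h1 := Subgroup.card_eq_card_quotient_mul_card_subgroup N
    rw [hN, Nat.card_zpowers, ht, ← hN] at h1
    rw [h1, Nat.factorization_mul Nat.card_pos.ne' (by norm_num), Finsupp.add_apply,
      Nat.Prime.factorization_self Nat.prime_two] at hfG
    omega
  have hP4 : Nat.card (P : Subgroup (G ⧸ N)) = 4 := by
    have := P.card_eq_multiplicity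
    rw [hfQ] at this
    simpa using this
  refine ⟨P, ⟨hP4, ?_⟩, ?_⟩
  · have hdvd : Monoid.exponent (P : Subgroup (G ⧸ N)) ∣ 2 := by
      apply Monoid.exponent_dvd_of_forall_pow_eq_one
      rintro ⟨x, hx⟩
      obtain ⟨s, hs, rfl⟩ := hPmem x hx
      apply Subtype.ext
      show (QuotientGroup.mk' N s) ^ 2 = 1
      rw [← map_pow]
      apply (QuotientGroup.eq_one_iff _).2
      rcases hS s hs with h | h | h
      · rw [h, one_pow]; exact N.one_mem
      · rw [h]; exact N.pow_mem htN 2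
      · rw [h.2.1]; exact htN
    rcases (Nat.dvd_prime Nat.prime_two).1 hdvd with h | h
    · exfalso
      rw [Monoid.exp_eq_one_iff] at h
      have := Nat.card_eq_one_iff_unique.2 ⟨h, ⟨1⟩⟩
      omega
    · exact h
  · have hone : ∀ u : G ⧸ N, orderOf u = 2 → IsConj u (QuotientGroup.mk' N y) := by
      intro u hu
      have hp : IsPGroup 2 (Subgroup.zpowers u) :=
        IsPGroup.of_card (n := 1) (by rw [Nat.card_zpowers, hu, pow_one])
      obtain ⟨h, hh⟩ := exists_conj_le P _ hp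
      obtain ⟨s, hs, hsu⟩ := hPmem _ (hh u (Subgroup.mem_zpowers u))
      have ho : orderOf (QuotientGroup.mk' N s) = 2 := by rw [hsu, orderOf_conj', hu]
      have h1 : IsConj u (QuotientGroup.mk' N s) := by
        rw [hsu]; exact isConj_iff.2 ⟨h, rfl⟩
      refine h1.trans ?_
      rcases hS s hs with h2 | h2 | h2
      · exfalso
        rw [h2, map_one, orderOf_one] at ho; omega
      · exfalso
        rw [h2, (QuotientGroup.eq_one_iff t).2 htN |> fun h => (h : QuotientGroup.mk' N t = 1),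
          orderOf_one] at ho
        omega
      · exact (QuotientGroup.mk' N).map_isConj h2.2.2
    intro s r hs hr
    exact (hone s hs).trans (hone r hr).symm

/-- **Seven characters**, modulo Brauer-Suzuki (`hZ`) and the Klein four case (`hK`). -/
theorem card_principal {M : Ideal AlgInt} (hM : IsPModular 2 M) (S : Sylow 2 G)
    (e : (S : Subgroup G) ≃* QuaternionGroup 2)
    (hO : ∀ N : Subgroup G, N.Normal → Odd (Nat.card N) → N = ⊥) (hG : (S : Subgroup G) ≠ ⊤)
    (hZ : Nat.card (Subgroup.center G) = 2)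
    (hK : ∀ (H : Type u) [Group H] [Finite H] (P : Sylow 2 H), IsKleinFour (P : Subgroup H) →
      (∀ s t : H, orderOf s = 2 → orderOf t = 2 → IsConj s t) →
      Nat.card (principalBlock M H) = 4) :
    Nat.card (principalBlock M G) = 7 := by
  have : Fact (Nat.Prime 2) := ⟨Nat.prime_two⟩
  let _ : Fintype G := Fintype.ofFinite G
  obtain ⟨t, y, htc, ht, hy, hyS, hS, hall, hidx⟩ := setup S e hO hG hZ
  have hcardS : Nat.card (S : Subgroup G) = 8 := by
    rw [Nat.card_congr e.toEquiv, Nat.card_eq_fintype_card, QuaternionGroup.card]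
  have htcen : t ∈ Subgroup.center G := Subgroup.mem_center_iff.2 htc
  have hNc : Subgroup.zpowers t ≤ Subgroup.center G := Subgroup.zpowers_le.2 htcen
  have hNn : (Subgroup.zpowers t).Normal := by
    constructor
    intro x hx g
    have h1 := Subgroup.mem_center_iff.mp (hNc hx) g
    have : g * x * g⁻¹ = x := by rw [h1, mul_inv_cancel_right]
    rw [this]; exact hx
  have hy2 : y ^ 2 = t := by
    rcases hS y hyS with h | h | h
    · rw [h, orderOf_one] at hy; omega
    · rw [h, ht] at hy; omega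
    · exact h.2.1
  have hyt : IsConj y (t * y) := by
    have h3 : t * y = y ^ 3 := by rw [← hy2, ← pow_succ]
    have ho : orderOf (y ^ 3) = 4 := by
      rw [orderOf_pow' y (by norm_num), hy]; rfl
    rw [h3]
    rcases hS _ (Subgroup.pow_mem _ hyS 3) with h | h | h
    · rw [h, orderOf_one] at ho; omega
    · rw [h, ht] at ho; omega
    · exact h.2.2.symm
  obtain ⟨P, hP, hone⟩ := quotient_klein S hcardS t y ht (Subgroup.zpowers t) rfl hS
  have h4 := hK (G ⧸ Subgroup.zpowers t) P hP hone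
  have hp := card_plus hM (Subgroup.zpowers t)
    (IsPGroup.of_card (n := 1) (by rw [Nat.card_zpowers, ht, pow_one])) hNc
  rw [h4] at hp
  apply count7 hM t y htc ht hy hyt (h4_of_setup hM S t y ht hy hS hidx)
    (h2_of_setup t htc ht hall)
  rw [← hp]
  apply Nat.card_congr
  apply Equiv.subtypeEquivRight
  intro ζ
  constructor
  · rintro ⟨h1, h2⟩
    refine ⟨h1, ?_⟩
    intro n hn
    obtain ⟨k, rfl⟩ := mem_powers_iff_mem_zpowers.2 hn
    rcases Nat.even_or_odd' k with ⟨r, hr | hr⟩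
    · show (ζ : G → ℂ) (t ^ k) = _
      rw [hr, pow_mul, ← ht, pow_orderOf_eq_one, one_pow]
    · show (ζ : G → ℂ) (t ^ k) = _
      rw [hr, pow_succ, pow_mul, ← ht, pow_orderOf_eq_one, one_pow, one_mul, h2]
  · rintro ⟨h1, h2⟩
    exact ⟨h1, h2 t (Subgroup.mem_zpowers t)⟩

end Cfsg.Agent.Lib.Helper25Q8Block
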