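import Mathlib
import Cfsg.Prelude.Def_Local
import Cfsg.Agent.Lib.Helper27Balance
import Cfsg.Agent.Lib.Helper28Layer

set_option autoImplicit false
set_option linter.unusedSectionVars false

namespace Cfsg.Agent.Lib.Helper27Cocycle

open Subgroup

/-- Gaschütz-style averaging: an automorphism fixing a Sylow `p`-subgroup and acting trivially
modulo an abelian normal `p`-subgroup `Z` in the sense `α g * g⁻¹ ∈ Z` is conjugation by an
element of `Z`. -/
theorem inner_of_cocycle {G : Type*} [Group G] [Finite G] {p : ℕ} [Fact p.Prime] (T : Sylow p G)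
    (Z : Subgroup G) [hZn : Z.Normal] (hZc : ∀ a ∈ Z, ∀ b ∈ Z, a * b = b * a) (hZp : IsPGroup p Z)
    (α : MulAut G) (hfixT : ∀ x ∈ (T : Subgroup G), α x = x) (hd : ∀ g, α g * g⁻¹ ∈ Z) :
    ∃ w ∈ Z, ∀ x, α x = w * x * w⁻¹ := by
  classical
  let _ : CommGroup Z :=
    { (inferInstance : Group Z) with mul_comm := fun a b => Subtype.ext (hZc a a.2 b b.2) }
  let d : G → Z := fun g => ⟨α g * g⁻¹, hd g⟩
  have hdT : ∀ a b : G, a⁻¹ * b ∈ (T : Subgroup G) → d a = d b := by
    intro a b hab
    apply Subtype.ext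
    show α a * a⁻¹ = α b * b⁻¹
    have h1 := hfixT _ hab
    rw [map_mul, map_inv] at h1
    have h2 : α b = α a * (a⁻¹ * b) := by rw [← h1]; group
    rw [h2]; group
  let D : G ⧸ (T : Subgroup G) → Z := fun q => Quotient.liftOn' q d (by
    intro a b hab
    exact hdT a b (QuotientGroup.leftRel_apply.mp hab))
  have hmul : ∀ h g : G, d (h * g) = d h * MulAut.conjNormal h (d g) := by
    intro h g
    apply Subtype.ext
    show α (h * g) * (h * g)⁻¹ = (α h * h⁻¹) * (h * (α g * g⁻¹) * h⁻¹)
    rw [map_mul]; group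
  have := Fintype.ofFinite (G ⧸ (T : Subgroup G))
  let s : Z := ∏ q, D q
  have key : ∀ h : G, s = d h ^ (Fintype.card (G ⧸ (T : Subgroup G))) * MulAut.conjNormal h s := by
    intro h
    calc s = ∏ q, D (h • q) :=
          (Fintype.prod_equiv (MulAction.toPerm h) (fun q => D (h • q)) D (fun q => rfl)).symm
      _ = ∏ q, (d h * MulAut.conjNormal h (D q)) := by
          apply Finset.prod_congr rfl
          intro q _
          induction q using QuotientGroup.induction_on with
          | H g => exact hmul h g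
      _ = d h ^ (Fintype.card (G ⧸ (T : Subgroup G))) * MulAut.conjNormal h s := by
          rw [Finset.prod_mul_distrib, Finset.prod_const, Finset.card_univ, map_prod]
  have hcop : (Nat.card Z).Coprime (Fintype.card (G ⧸ (T : Subgroup G))) := by
    obtain ⟨k, hk⟩ := IsPGroup.iff_card.mp hZp
    rw [hk]
    apply Nat.Coprime.pow_left
    rw [Nat.Prime.coprime_iff_not_dvd Fact.out, ← Nat.card_eq_fintype_card]
    exact T.not_dvd_index
  obtain ⟨w, hw⟩ := (powCoprime hcop).surjective s
  have hw' : w ^ (Fintype.card (G ⧸ (T : Subgroup G))) = s := hw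
  refine ⟨w, w.2, fun h => ?_⟩
  have h1 : d h = w * (MulAut.conjNormal h w)⁻¹ := by
    apply (powCoprime hcop).injective
    show d h ^ _ = (w * (MulAut.conjNormal h w)⁻¹) ^ _
    rw [mul_pow, inv_pow, ← map_pow, hw']
    rw [eq_mul_inv_iff_mul_eq]
    exact (key h).symm
  have h2 := congrArg Subtype.val h1
  have h3 : α h * h⁻¹ = (w : G) * (h * w * h⁻¹)⁻¹ := h2
  calc α h = (α h * h⁻¹) * h := by group
    _ = (w : G) * (h * w * h⁻¹)⁻¹ * h := by rw [h3]
    _ = w * h * (w : G)⁻¹ := by group

end Cfsg.Agent.Lib.Helper27Cocycle
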