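import Cfsg.Agent.Lib.Helper27E8Gen

set_option autoImplicit false

namespace Cfsg.Agent.Lib.Helper27E8Basis

open Subgroup

variable {P : Type*} [Group P]

/-- fixed points of an automorphism -/
def fx (T : MulAut P) : Subgroup P where
  carrier := {x | T x = x}
  one_mem' := map_one T
  mul_mem' := by
    intro a b ha hb
    change T (a * b) = a * b
    rw [map_mul, ha, hb]
  inv_mem' := by
    intro a ha
    change T a⁻¹ = a⁻¹
    rw [map_inv, ha]

theorem mem_fx {T : MulAut P} {x : P} : x ∈ fx T ↔ T x = x := Iff.rfl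

/-- the stabilizer of `x` in `I` has index at most two -/
def Q (I : Subgroup (MulAut P)) (x : P) : Prop :=
  ∀ S ∈ I, ∀ S' ∈ I, S x ≠ x → S' x ≠ x → (S * S') x = x

theorem exists_moved [Finite P] (hodd : Odd (Nat.card P)) (I : Subgroup (MulAut P))
    (hI : Cfsg.IsElementaryAbelian 2 I) (hI4 : 4 ≤ Nat.card ↥I) (T : MulAut P) (hT1 : T ≠ 1) :
    ∃ x, Q I x ∧ T x ≠ x := by
  by_contra hcon
  push Not at hcon
  have := Helper27E8Gen.gen_aut hodd I hI hI4 (fx T) (fun x hx => hcon x hx)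
  apply hT1
  ext x
  have hx : x ∈ fx T := by rw [this]; exact mem_top x
  exact hx

theorem adjust {I : Subgroup (MulAut P)} {x : P} (hQ : Q I x) {S e : MulAut P} (hS : S ∈ I)
    (he : e ∈ I) (hex : e x ≠ x) : ∃ S' ∈ I, (S' = S ∨ S' = S * e) ∧ S' x = x := by
  by_cases h : S x = x
  · exact ⟨S, hS, Or.inl rfl, h⟩
  · exact ⟨S * e, I.mul_mem hS he, Or.inr rfl, hQ S hS e he h hex⟩

theorem exists_not_mem [Finite P] (I : Subgroup (MulAut P)) (F : Finset (MulAut P))
    (hF : F.card < Nat.card ↥I) : ∃ R ∈ I, R ∉ F := by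
  by_contra h
  push Not at h
  have : Nat.card ↥I ≤ Nat.card ↥F :=
    Nat.card_le_card_of_injective (fun r : ↥I => (⟨r, h r r.2⟩ : ↥F)) (by
      intro a b hab
      exact Subtype.ext (congrArg (fun t : ↥F => (t : MulAut P)) hab))
  rw [Nat.card_eq_fintype_card (α := ↥F), Fintype.card_coe] at this
  omega

theorem exists_basis [Finite P] (hodd : Odd (Nat.card P)) (I : Subgroup (MulAut P))
    (hI : Cfsg.IsElementaryAbelian 2 I) (hI8 : Nat.card ↥I = 8) :
    ∃ e1 ∈ I, ∃ e2 ∈ I, ∃ e3 ∈ I, ∃ x1 x2 x3 : P,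
      e1 x1 ≠ x1 ∧ e1 x2 = x2 ∧ e1 x3 = x3 ∧ e2 x1 = x1 ∧ e2 x2 ≠ x2 ∧ e2 x3 = x3 ∧
      e3 x1 = x1 ∧ e3 x2 = x2 ∧ e3 x3 ≠ x3 := by
  classical
  have hsq : ∀ T ∈ I, T * T = 1 := fun T hT => by rw [← sq]; exact hI.2 T hT
  have hcomm : ∀ S ∈ I, ∀ T ∈ I, S * T = T * S := by
    intro S hS T hT
    exact congrArg (fun t : ↥I => (t : MulAut P)) (hI.1.is_comm.comm ⟨S, hS⟩ ⟨T, hT⟩)
  have hmv := exists_moved hodd I hI (by omega)
  -- T1
  obtain ⟨T1, hT1, hT1'⟩ := exists_not_mem I {1} (by rw [hI8]; simp)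
  have hT1ne : T1 ≠ 1 := by simpa using hT1'
  obtain ⟨x1, hQ1, h11⟩ := hmv T1 hT1ne
  -- T2
  obtain ⟨R, hR, hR'⟩ := exists_not_mem I {1, T1} (by
    rw [hI8]; exact lt_of_le_of_lt (Finset.card_le_two) (by norm_num))
  simp only [Finset.mem_insert, Finset.mem_singleton, not_or] at hR'
  obtain ⟨T2, hT2, hT2c, h21⟩ := adjust hQ1 hR hT1 h11
  have hT2ne : T2 ≠ 1 := by
    rcases hT2c with rfl | rfl
    · exact hR'.1
    · intro h
      apply hR'.2
      have := congrArg (· * T1) h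
      simpa [mul_assoc, hsq T1 hT1] using this
  obtain ⟨x2, hQ2, h22⟩ := hmv T2 hT2ne
  -- T3
  obtain ⟨R2, hR2, hR2'⟩ := exists_not_mem I {1, T1, T2, T1 * T2} (by
    rw [hI8]; exact lt_of_le_of_lt (Finset.card_le_four) (by norm_num))
  simp only [Finset.mem_insert, Finset.mem_singleton, not_or] at hR2'
  obtain ⟨R3, hR3, hR3c, hR31⟩ := adjust hQ1 hR2 hT1 h11
  have hR3ne : R3 ≠ 1 ∧ R3 ≠ T2 := by
    rcases hR3c with rfl | rfl
    · exact ⟨hR2'.1, hR2'.2.2.1⟩
    · constructor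
      · intro h
        apply hR2'.2.1
        have := congrArg (· * T1) h
        simpa [mul_assoc, hsq T1 hT1] using this
      · intro h
        apply hR2'.2.2.2
        have := congrArg (· * T1) h
        rw [hcomm T1 hT1 T2 hT2]
        simpa [mul_assoc, hsq T1 hT1] using this
  obtain ⟨T3, hT3, hT3c, h32⟩ := adjust hQ2 hR3 hT2 h22
  have hT3ne : T3 ≠ 1 := by
    rcases hT3c with rfl | rfl
    · exact hR3ne.1
    · intro h
      apply hR3ne.2
      have := congrArg (· * T2) h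
      simpa [mul_assoc, hsq T2 hT2] using this
  have h31 : T3 x1 = x1 := by
    rcases hT3c with rfl | rfl
    · exact hR31
    · rw [MulAut.mul_apply, h21, hR31]
  obtain ⟨x3, hQ3, h33⟩ := hmv T3 hT3ne
  -- e2
  obtain ⟨e2, he2, he2c, he23⟩ := adjust hQ3 hT2 hT3 h33
  have he21 : e2 x1 = x1 := by
    rcases he2c with rfl | rfl
    · exact h21
    · rw [MulAut.mul_apply, h31, h21]
  have he22 : e2 x2 ≠ x2 := by
    rcases he2c with rfl | rfl
    · exact h22
    · rw [MulAut.mul_apply, h32]; exact h22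
  -- e1
  obtain ⟨S1, hS1, hS1c, hS12⟩ := adjust hQ2 hT1 he2 he22
  have hS11 : S1 x1 ≠ x1 := by
    rcases hS1c with rfl | rfl
    · exact h11
    · rw [MulAut.mul_apply, he21]; exact h11
  obtain ⟨e1, he1, he1c, he13⟩ := adjust hQ3 hS1 hT3 h33
  have he11 : e1 x1 ≠ x1 := by
    rcases he1c with rfl | rfl
    · exact hS11
    · rw [MulAut.mul_apply, h31]; exact hS11
  have he12 : e1 x2 = x2 := by
    rcases he1c with rfl | rfl
    · exact hS12
    · rw [MulAut.mul_apply, h32]; exact hS12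
  exact ⟨e1, he1, e2, he2, T3, hT3, x1, x2, x3, he11, he12, he13, he21, he22, he23, h31, h32, h33⟩

end Cfsg.Agent.Lib.Helper27E8Basis
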