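import Mathlib

set_option autoImplicit false

/-! Involutory automorphisms of odd `p`-groups: cyclic invariant subgroups, fixed point free
action. -/

namespace Cfsg.Agent.Lib.Helper27E8Cyc

open Subgroup

theorem mem_of_pow_card_eq_one {A : Type*} [Group A] [Finite A] [IsCyclic A] (K : Subgroup A) {x : A}
    (hx : x ^ Nat.card K = 1) : x ∈ K := by
  classical
  have := Fintype.ofFinite A
  have h1 := IsCyclic.card_pow_eq_one_le (α := A) (n := Nat.card K) Nat.card_pos
  have h2 : (Finset.univ.filter (fun a : A => a ∈ K)) ⊆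
      Finset.univ.filter (fun a : A => a ^ Nat.card K = 1) := by
    intro a ha
    simp only [Finset.mem_filter, Finset.mem_univ, true_and] at ha ⊢
    have := pow_card_eq_one' (G := K) (x := ⟨a, ha⟩)
    exact congrArg Subtype.val this
  have h3 : (Finset.univ.filter (fun a : A => a ∈ K)).card = Nat.card K := by
    rw [Nat.card_eq_fintype_card, Fintype.card_subtype]
  have h4 := Finset.eq_of_subset_of_card_le h2 (by rw [h3]; exact h1)
  have h5 : x ∈ Finset.univ.filter (fun a : A => a ^ Nat.card K = 1) :=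
    Finset.mem_filter.mpr ⟨Finset.mem_univ _, hx⟩
  rw [← h4] at h5
  simpa using h5

/-- subgroups of a cyclic `p`-group form a chain -/
theorem le_or_le_of_cyclic {A : Type*} [Group A] [Finite A] [IsCyclic A] {p : ℕ} [Fact p.Prime]
    (hA : IsPGroup p A) (C I : Subgroup A) : C ≤ I ∨ I ≤ C := by
  obtain ⟨i, hi⟩ := (hA.to_subgroup C).exists_card_eq
  obtain ⟨j, hj⟩ := (hA.to_subgroup I).exists_card_eq
  have key : ∀ (C I : Subgroup A) (i j : ℕ), Nat.card C = p ^ i → Nat.card I = p ^ j → i ≤ j →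
      C ≤ I := by
    intro C I i j hi hj hij x hx
    apply mem_of_pow_card_eq_one
    have h1 : x ^ Nat.card C = 1 := congrArg Subtype.val (pow_card_eq_one' (G := C) (x := ⟨x, hx⟩))
    obtain ⟨d, rfl⟩ := Nat.exists_eq_add_of_le hij
    rw [hj, pow_add, pow_mul, ← hi, h1, one_pow]
  rcases le_total i j with h | h
  · exact Or.inl (key C I i j hi hj h)
  · exact Or.inr (key I C j i hj hi h)

variable {P : Type*} [Group P]

theorem chain [Finite P] {p : ℕ} [Fact p.Prime] (hP : IsPGroup p P) {g x y : P}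
    (hx : x ∈ zpowers g) (hy : y ∈ zpowers g) : x ∈ zpowers y ∨ y ∈ zpowers x := by
  rcases le_or_le_of_cyclic (hP.to_subgroup (zpowers g)) ((zpowers x).subgroupOf (zpowers g))
    ((zpowers y).subgroupOf (zpowers g)) with h | h
  · left
    have : (⟨x, hx⟩ : ↥(zpowers g)) ∈ (zpowers y).subgroupOf (zpowers g) :=
      h (mem_subgroupOf.mpr (mem_zpowers x))
    exact mem_subgroupOf.mp this
  · right
    have : (⟨y, hy⟩ : ↥(zpowers g)) ∈ (zpowers x).subgroupOf (zpowers g) :=
      h (mem_subgroupOf.mpr (mem_zpowers y))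
    exact mem_subgroupOf.mp this

theorem eq_one_of_eq_inv {p : ℕ} (hp : p.Prime) (hp2 : p ≠ 2) (hP : IsPGroup p P) {x : P}
    (h : x = x⁻¹) : x = 1 := by
  obtain ⟨k, hk⟩ := hP x
  have h2 : x ^ 2 = 1 := by
    rw [sq]; nth_rewrite 1 [h]; exact inv_mul_cancel x
  have h1 := orderOf_dvd_of_pow_eq_one hk
  have h3 := orderOf_dvd_of_pow_eq_one h2
  have hc : Nat.Coprime (p ^ k) 2 :=
    Nat.Coprime.pow_left k ((Nat.coprime_primes hp Nat.prime_two).mpr hp2)
  have := Nat.eq_one_of_dvd_coprimes hc h1 h3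
  exact orderOf_eq_one_iff.mp this

theorem fix_zpowers {T : MulAut P} {z w : P} (h : T z = z) (hw : w ∈ zpowers z) : T w = w := by
  obtain ⟨k, rfl⟩ := hw
  change T (z ^ k) = z ^ k
  rw [map_zpow, h]

theorem inv_zpowers {T : MulAut P} {z w : P} (h : T z = z⁻¹) (hw : w ∈ zpowers z) :
    T w = w⁻¹ := by
  obtain ⟨k, rfl⟩ := hw
  change T (z ^ k) = (z ^ k)⁻¹
  rw [map_zpow, h, inv_zpow]

theorem fix_or_inv [Finite P] {p : ℕ} (hp : p.Prime) (hp2 : p ≠ 2) (hP : IsPGroup p P)
    {T : MulAut P} (hT : T * T = 1) {c : P} (hTc : T c ∈ zpowers c) : T c = c ∨ T c = c⁻¹ := by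
  have : Fact p.Prime := ⟨hp⟩
  have hTT : T (T c) = c := by
    rw [← MulAut.mul_apply, hT]; rfl
  have hcomm : c * T c = T c * c := by
    obtain ⟨k, hk⟩ := hTc
    rw [← hk]
    change c * c ^ k = c ^ k * c
    exact ((Commute.refl c).zpow_right k).eq
  have ha : c * T c ∈ zpowers c := (zpowers c).mul_mem (mem_zpowers c) hTc
  have hb : c * (T c)⁻¹ ∈ zpowers c := (zpowers c).mul_mem (mem_zpowers c) ((zpowers c).inv_mem hTc)
  have hTa : T (c * T c) = c * T c := by rw [map_mul, hTT, hcomm]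
  have hTb : T (c * (T c)⁻¹) = (c * (T c)⁻¹)⁻¹ := by
    rw [map_mul, map_inv, hTT, mul_inv_rev, inv_inv]
  rcases chain hP ha hb with h | h
  · right
    have h1 := inv_zpowers hTb h
    rw [hTa] at h1
    have := eq_one_of_eq_inv hp hp2 hP h1
    exact (eq_inv_of_mul_eq_one_right this)
  · left
    have h1 := fix_zpowers hTa h
    rw [hTb] at h1
    have := eq_one_of_eq_inv hp hp2 hP h1.symm
    exact (mul_inv_eq_one.mp this).symm

/-- the structure of the cyclic fixed point group of `a * b`. -/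
theorem lemX [Finite P] {p : ℕ} (hp : p.Prime) (hp2 : p ≠ 2) (hP : IsPGroup p P)
    {a b c : MulAut P} (ha : a * a = 1) (hb : b * b = 1) (hc : c * c = 1) (hab : a * b = b * a)
    (hac : a * c = c * a) (hbc : b * c = c * b) {x g : P} (hax : a x = x) (hbx : b x = x)
    (hcx : c x ≠ x) (hg : ∀ y, (a * b) y = y ↔ y ∈ zpowers g) :
    ∀ y ∈ zpowers g, a y = y ∧ b y = y ∧ c y = y⁻¹ := by
  have hgg : (a * b) g = g := (hg g).mpr (mem_zpowers g)
  have hxg : x ∈ zpowers g := (hg x).mp (by rw [MulAut.mul_apply, hbx, hax])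
  have hx1 : x ≠ 1 := by
    rintro rfl
    exact hcx (map_one c)
  have hinv : ∀ T : MulAut P, (a * b) * T = T * (a * b) → T g ∈ zpowers g := by
    intro T hT
    apply (hg _).mp
    rw [← MulAut.mul_apply, hT, MulAut.mul_apply, hgg]
  have h1 : a g = g := by
    rcases fix_or_inv hp hp2 hP ha (hinv a (by rw [mul_assoc, ← hab])) with h | h
    · exact h
    · exfalso
      have := inv_zpowers h hxg
      rw [hax] at this
      exact hx1 (eq_one_of_eq_inv hp hp2 hP this)
  have h2 : b g = g := by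
    rcases fix_or_inv hp hp2 hP hb (hinv b (by rw [← mul_assoc, ← hab])) with h | h
    · exact h
    · exfalso
      have := inv_zpowers h hxg
      rw [hbx] at this
      exact hx1 (eq_one_of_eq_inv hp hp2 hP this)
  have h3 : c g = g⁻¹ := by
    rcases fix_or_inv hp hp2 hP hc (hinv c (by
      rw [mul_assoc, hbc, ← mul_assoc, hac, mul_assoc])) with h | h
    · exact absurd (fix_zpowers h hxg) hcx
    · exact h
  intro y hy
  exact ⟨fix_zpowers h1 hy, fix_zpowers h2 hy, inv_zpowers h3 hy⟩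

theorem inv_of_fpf [Finite P] {τ : MulAut P} (hτ : τ * τ = 1) (C : Subgroup P)
    (hC : ∀ y ∈ C, τ y ∈ C) (hf : ∀ y ∈ C, τ y = y → y = 1) : ∀ y ∈ C, τ y = y⁻¹ := by
  have hττ : ∀ y, τ (τ y) = y := by
    intro y
    rw [← MulAut.mul_apply, hτ]; rfl
  let f : ↥C → ↥C := fun y => ⟨(y : P)⁻¹ * τ y, C.mul_mem (C.inv_mem y.2) (hC y y.2)⟩
  have hinj : Function.Injective f := by
    intro y z hyz
    have h : (y : P)⁻¹ * τ y = (z : P)⁻¹ * τ z := congrArg Subtype.val hyz
    have h1 : τ ((z : P) * (y : P)⁻¹) = (z : P) * (y : P)⁻¹ := by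
      rw [map_mul, map_inv]
      have : τ (z : P) = z * ((y : P)⁻¹ * τ y) := by rw [h]; group
      rw [this]; group
    have h2 := hf _ (C.mul_mem z.2 (C.inv_mem y.2)) h1
    exact Subtype.ext (mul_inv_eq_one.mp h2).symm
  have hsurj := Finite.surjective_of_injective hinj
  intro w hw
  obtain ⟨y, hy⟩ := hsurj ⟨w, hw⟩
  have hy' : (y : P)⁻¹ * τ y = w := congrArg Subtype.val hy
  rw [← hy', map_mul, map_inv, hττ, mul_inv_rev, inv_inv]

theorem comm_of_inv {τ : MulAut P} (C : Subgroup P) (h : ∀ y ∈ C, τ y = y⁻¹) :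
    ∀ y ∈ C, ∀ z ∈ C, y * z = z * y := by
  intro y hy z hz
  have h1 := h (y * z) (C.mul_mem hy hz)
  rw [map_mul, h y hy, h z hz, mul_inv_rev] at h1
  have := congrArg (·⁻¹) h1
  simpa using this.symm

end Cfsg.Agent.Lib.Helper27E8Cyc
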