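import Cfsg.Agent.S1324

set_option autoImplicit false

/-! Generation of an odd order group by the elements whose stabilizer in an elementary abelian
`2`-group of automorphisms has index at most two (transfer of S1324 to `MulAut`). -/

namespace Cfsg.Agent.Lib.Helper27E8Gen

open Subgroup SemidirectProduct

theorem gen_aut {P : Type*} [Group P] [Finite P] (hodd : Odd (Nat.card P))
    (E : Subgroup (MulAut P)) (hE : Cfsg.IsElementaryAbelian 2 E) (hE4 : 4 ≤ Nat.card ↥E)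
    (D : Subgroup P)
    (hD : ∀ x : P, (∀ S ∈ E, ∀ S' ∈ E, S x ≠ x → S' x ≠ x → (S * S') x = x) → x ∈ D) :
    D = ⊤ := by
  let φ : ↥E →* MulAut P := E.subtype
  have hfin : Finite (P ⋊[φ] ↥E) := Finite.of_equiv _ (equivProd (φ := φ)).symm
  set A : Subgroup (P ⋊[φ] ↥E) := (inr : ↥E →* P ⋊[φ] ↥E).range with hA
  set X : Subgroup (P ⋊[φ] ↥E) := (inl : P →* P ⋊[φ] ↥E).range with hX
  have : Fact (Nat.Prime 2) := ⟨Nat.prime_two⟩
  have hAe : Cfsg.IsElementaryAbelian 2 A := by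
    refine ⟨⟨⟨?_⟩⟩, ?_⟩
    · rintro ⟨_, a, rfl⟩ ⟨_, b, rfl⟩
      apply Subtype.ext
      change (inr a : P ⋊[φ] ↥E) * inr b = inr b * inr a
      rw [← map_mul, ← map_mul, hE.1.is_comm.comm a b]
    · rintro _ ⟨a, rfl⟩
      rw [← map_pow]
      have : a ^ 2 = 1 := Subtype.ext (hE.2 a a.2)
      rw [this, map_one]
  have hAc : Nat.card ↥A = Nat.card ↥E :=
    Nat.card_congr (MonoidHom.ofInjective (inr_injective (φ := φ))).toEquiv.symm
  have hXc : Nat.card ↥X = Nat.card P :=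
    Nat.card_congr (MonoidHom.ofInjective (inl_injective (φ := φ))).toEquiv.symm
  have hXn : X.Normal := by
    rw [hX, range_inl_eq_ker_rightHom]; infer_instance
  have key := Cfsg.Agent.S1324.result 2 A X hAe (by rw [hAc]; exact hE4)
    (by rw [hXc]; exact fun h => (Nat.not_even_iff_odd.mpr hodd) (even_iff_two_dvd.mpr h))
    (by rw [normalizer_eq_top]; exact le_top)
  have hfix : ∀ (S : ↥E) (x : P), (inr S : P ⋊[φ] ↥E) * inl x = inl x * inr S →
      (S : MulAut P) x = x := by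
    intro S x h
    have h1 := inl_aut (φ := φ) S x
    rw [h, map_inv, mul_inv_cancel_right] at h1
    exact inl_injective h1
  have hle : X ≤ D.map (inl : P →* P ⋊[φ] ↥E) := by
    rw [key]
    refine iSup_le ?_
    rintro ⟨B, hBA, hBi⟩
    rintro _ ⟨⟨x, rfl⟩, hxB⟩
    refine ⟨x, hD x ?_, rfl⟩
    have hxB' : (inl x : P ⋊[φ] ↥E) ∈ centralizer (B : Set (P ⋊[φ] ↥E)) := hxB
    rw [mem_centralizer_iff] at hxB'
    intro S hS S' hS' hSx hS'x
    have hn : ∀ T : ↥E, (T : MulAut P) x ≠ x → (inr T : P ⋊[φ] ↥E) ∉ B := by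
      intro T hT hTB
      exact hT (hfix T x (hxB' _ hTB))
    have h1 := hn ⟨S, hS⟩ hSx
    have h2 := hn ⟨S', hS'⟩ hS'x
    have hidx : (B.subgroupOf A).index = 2 := by
      have hle2 : (B.subgroupOf A).index ≤ 2 := hBi
      have hne0 : (B.subgroupOf A).index ≠ 0 := index_ne_zero_of_finite
      have hne1 : (B.subgroupOf A).index ≠ 1 := by
        intro h
        rw [index_eq_one, subgroupOf_eq_top] at h
        exact h1 (h ⟨_, rfl⟩)
      omega
    have h3 := (mul_mem_iff_of_index_two hidx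
      (a := (⟨inr ⟨S, hS⟩, ⟨_, rfl⟩⟩ : ↥A)) (b := (⟨inr ⟨S', hS'⟩, ⟨_, rfl⟩⟩ : ↥A))).mpr
      (by simp only [mem_subgroupOf]; exact iff_of_false h1 h2)
    rw [mem_subgroupOf] at h3
    have h4 : (inr (⟨S, hS⟩ * ⟨S', hS'⟩ : ↥E) : P ⋊[φ] ↥E) ∈ B := by
      rw [map_mul]; exact h3
    exact hfix _ x (hxB' _ h4)
  rw [eq_top_iff]
  intro x _
  obtain ⟨y, hy, hyx⟩ := hle ⟨x, rfl⟩
  rw [← inl_injective hyx]; exact hy

end Cfsg.Agent.Lib.Helper27E8Gen
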