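import Cfsg.Agent.Lib.Helper27E8Cyc
import Cfsg.Agent.Lib.Helper12Card

set_option autoImplicit false

namespace Cfsg.Agent.Lib.Helper27E8Rank

open Subgroup Cfsg.Agent.Lib.Helper27E8Cyc

theorem zpow_split {A : Type*} [Group A] (a : A) (m : ℤ) {p : ℕ} (hp : 0 < p) :
    a ^ m = a ^ ((m % p).toNat) * (a ^ (m / p)) ^ p := by
  rw [← zpow_natCast a, Int.toNat_of_nonneg (Int.emod_nonneg _ (by positivity)),
    ← zpow_natCast (a ^ (m / p)) p, ← zpow_mul, ← zpow_add]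
  congr 1
  rw [mul_comm]
  exact (Int.emod_add_mul_ediv m p).symm

theorem card_ker_le {A : Type*} [CommGroup A] [Finite A] {p : ℕ} (hp : 0 < p) (a b : A)
    (hab : closure {a, b} = ⊤) : Nat.card (powMonoidHom p : A →* A).ker ≤ p ^ 2 := by
  set π : A →* A := powMonoidHom p with hπ
  have h1 : Nat.card π.ker * Nat.card π.range = Nat.card A := by
    rw [← index_ker]; exact card_mul_index _
  have h2 : Nat.card A ≤ p ^ 2 * Nat.card π.range := by
    let f : (Fin p × Fin p) × π.range → A := fun t => a ^ (t.1.1 : ℕ) * b ^ (t.1.2 : ℕ) * t.2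
    have hsurj : Function.Surjective f := by
      intro x
      have hx : x ∈ closure ({a, b} : Set A) := by rw [hab]; exact mem_top x
      obtain ⟨m, n, rfl⟩ := mem_closure_pair.mp hx
      have hlt : ∀ k : ℤ, (k % p).toNat < p := by
        intro k
        have h1 := Int.emod_lt_of_pos k (by exact_mod_cast hp : (0 : ℤ) < p)
        have h2 := Int.emod_nonneg k (by positivity : (p : ℤ) ≠ 0)
        omega
      refine ⟨((⟨(m % p).toNat, hlt m⟩, ⟨(n % p).toNat, hlt n⟩),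
        ⟨(a ^ (m / p) * b ^ (n / p)) ^ p, ⟨a ^ (m / p) * b ^ (n / p), rfl⟩⟩), ?_⟩
      change a ^ ((m % p).toNat) * b ^ ((n % p).toNat) * (a ^ (m / p) * b ^ (n / p)) ^ p = _
      rw [zpow_split a m hp, zpow_split b n hp, mul_pow]
      exact mul_mul_mul_comm _ _ _ _
    have := Nat.card_le_card_of_surjective f hsurj
    rw [Nat.card_prod, Nat.card_prod, Nat.card_eq_fintype_card (α := Fin p), Fintype.card_fin] at this
    rw [sq]; exact this
  rw [← h1] at h2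
  exact Nat.le_of_mul_le_mul_right h2 Nat.card_pos

theorem exists_order_p {P : Type*} [Group P] [Finite P] {p : ℕ} [Fact p.Prime] (hP : IsPGroup p P)
    {y : P} (hy : y ≠ 1) : ∃ z ∈ zpowers y, orderOf z = p := by
  have hp := (Fact.out : p.Prime)
  obtain ⟨n, hn⟩ := (hP.to_subgroup (zpowers y)).exists_card_eq
  have hn0 : n ≠ 0 := by
    rintro rfl
    rw [pow_zero, card_eq_one, zpowers_eq_bot] at hn
    exact hy hn
  obtain ⟨z, hz⟩ := exists_prime_orderOf_dvd_card' (G := ↥(zpowers y)) p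
    (by rw [hn]; exact dvd_pow_self p hn0)
  exact ⟨z, z.2, by rw [← hz]; exact Subgroup.orderOf_coe z⟩

theorem not_two_gen_comm {A : Type*} [CommGroup A] [Finite A] {p : ℕ} (hp : p.Prime) (hp2 : p ≠ 2)
    (hA : IsPGroup p A) (e2 e3 : MulAut A) (y1 y2 y3 : A) (h1 : y1 ≠ 1) (h2 : y2 ≠ 1)
    (h3 : y3 ≠ 1) (e2y1 : e2 y1 = y1) (e2y2 : e2 y2 = y2⁻¹) (e3y1 : e3 y1 = y1)
    (e3y2 : e3 y2 = y2) (e3y3 : e3 y3 = y3⁻¹) : ¬ ∃ a b : A, closure {a, b} = ⊤ := by
  have : Fact p.Prime := ⟨hp⟩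
  rintro ⟨a, b, hab⟩
  have hle := card_ker_le hp.pos a b hab
  obtain ⟨z1, hz1, ho1⟩ := exists_order_p hA h1
  obtain ⟨z2, hz2, ho2⟩ := exists_order_p hA h2
  obtain ⟨z3, hz3, ho3⟩ := exists_order_p hA h3
  have hc : ∀ z : A, orderOf z = p → Nat.card ↥(zpowers z) = p := by
    intro z hz; rw [Nat.card_zpowers, hz]
  have hk : ∀ z : A, orderOf z = p → zpowers z ≤ (powMonoidHom p : A →* A).ker := by
    intro z hz
    rw [zpowers_le, MonoidHom.mem_ker, powMonoidHom_apply, ← hz]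
    exact pow_orderOf_eq_one z
  have hd12 : zpowers z1 ⊓ zpowers z2 = ⊥ := by
    rw [eq_bot_iff]
    rintro w ⟨hw1, hw2⟩
    have a1 : e2 w = w := fix_zpowers (fix_zpowers e2y1 hz1) hw1
    have a2 : e2 w = w⁻¹ := inv_zpowers (inv_zpowers e2y2 hz2) hw2
    exact eq_one_of_eq_inv hp hp2 hA (a1.symm.trans a2)
  have hd3 : (zpowers z1 ⊔ zpowers z2) ⊓ zpowers z3 = ⊥ := by
    rw [eq_bot_iff]
    rintro w ⟨hw1, hw2⟩
    have a1 : e3 w = w := by
      have hle : zpowers z1 ⊔ zpowers z2 ≤ (MonoidHom.eqLocus e3.toMonoidHom (MonoidHom.id A)) := by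
        refine sup_le ?_ ?_
        · intro v hv; exact fix_zpowers (fix_zpowers e3y1 hz1) hv
        · intro v hv; exact fix_zpowers (fix_zpowers e3y2 hz2) hv
      exact hle hw1
    have a2 : e3 w = w⁻¹ := inv_zpowers (inv_zpowers e3y3 hz3) hw2
    exact eq_one_of_eq_inv hp hp2 hA (a1.symm.trans a2)
  have c12 := Helper12Card.card_sup_mul_card_inf_of_normal (zpowers z1) (zpowers z2)
  rw [hd12, card_bot, mul_one, hc z1 ho1, hc z2 ho2] at c12
  have c123 := Helper12Card.card_sup_mul_card_inf_of_normal (zpowers z1 ⊔ zpowers z2) (zpowers z3)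
  rw [hd3, card_bot, mul_one, c12, hc z3 ho3] at c123
  have hsub : (zpowers z1 ⊔ zpowers z2) ⊔ zpowers z3 ≤ (powMonoidHom p : A →* A).ker :=
    sup_le (sup_le (hk z1 ho1) (hk z2 ho2)) (hk z3 ho3)
  have := Nat.le_of_dvd Nat.card_pos (card_dvd_of_le hsub)
  rw [c123] at this
  have h4 : p * p * p ≤ p ^ 2 := this.trans hle
  have := hp.one_lt
  nlinarith [hp.pos]

theorem not_two_gen {P : Type*} [Group P] [Finite P] {p : ℕ} (hp : p.Prime) (hp2 : p ≠ 2)
    (hP : IsPGroup p P) (hcomm : ∀ x y : P, x * y = y * x) (e2 e3 : MulAut P) (y1 y2 y3 : P)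
    (h1 : y1 ≠ 1) (h2 : y2 ≠ 1) (h3 : y3 ≠ 1) (e2y1 : e2 y1 = y1) (e2y2 : e2 y2 = y2⁻¹)
    (e3y1 : e3 y1 = y1) (e3y2 : e3 y2 = y2) (e3y3 : e3 y3 = y3⁻¹) :
    ¬ ∃ a b : P, closure {a, b} = ⊤ := by
  let inst : CommGroup P := { ‹Group P› with mul_comm := hcomm }
  exact @not_two_gen_comm P inst _ p hp hp2 hP e2 e3 y1 y2 y3 h1 h2 h3 e2y1 e2y2 e3y1 e3y2 e3y3

end Cfsg.Agent.Lib.Helper27E8Rank
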