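import Cfsg.Agent.Lib.Helper27FlavC

set_option autoImplicit false

/-! Iterated commutators with an element whose normal closure is the whole group generate
(together with the element) the whole group. -/

namespace Cfsg.Agent.Lib.Helper27EngA

open Subgroup Cfsg.Agent.Lib.Helper58Subnormal Cfsg.Agent.Lib.Helper58Zipper
  Cfsg.Agent.Lib.Helper27FlavA Cfsg.Agent.Lib.Helper27FlavB

universe u

/-- the commutator map `x ↦ [x, a]` -/
def F {Γ : Type*} [Group Γ] (a : Γ) (x : Γ) : Γ := x * a * x⁻¹ * a⁻¹

theorem coe_iter {Γ : Type*} [Group Γ] {H : Subgroup Γ} (a : H) (j : ℕ) :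
    ∀ v : H, (((F a)^[j] v : H) : Γ) = (F (a : Γ))^[j] (v : Γ) := by
  induction j with
  | zero => intro v; rfl
  | succ j ih =>
    intro v
    rw [Function.iterate_succ_apply, Function.iterate_succ_apply, ih]
    rfl

theorem mem_normalizer_of_cj_eq {Γ : Type*} [Group Γ] {M : Subgroup Γ} {g : Γ}
    (h : cj g M = M) : g ∈ normalizer (M : Set Γ) := by
  rw [mem_normalizer_iff]
  intro y
  constructor
  · intro hy
    rw [← h]; exact ⟨y, hy, rfl⟩
  · intro hy
    rw [← h, mem_cj_iff] at hy
    have e : g⁻¹ * (g * y * g⁻¹) * g = y := by group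
    rwa [e] at hy

theorem gen_aux (k : ℕ) : ∀ (n : ℕ) (Γ : Type u) [Group Γ] [Finite Γ] (a : Γ), Nat.card Γ = n →
    (∀ N : Subgroup Γ, N.Normal → a ∈ N → N = ⊤) →
    closure ({a} ∪ Set.range ((F a)^[k])) = ⊤ := by
  intro n
  induction n using Nat.strong_induction_on with
  | _ n IH =>
    intro Γ _ _ a hn hgen
    obtain ⟨L, hL⟩ : ∃ L : Subgroup Γ, L = closure ({a} ∪ Set.range ((F a)^[k])) := ⟨_, rfl⟩
    rw [← hL]
    have haL : a ∈ L := by rw [hL]; exact subset_closure (Or.inl rfl)
    have hFL : ∀ x, (F a)^[k] x ∈ L := fun x => by rw [hL]; exact subset_closure (Or.inr ⟨x, rfl⟩)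
    by_contra hLt
    have hAL : zpowers a ≤ L := (zpowers_le).mpr haL
    have hAt : zpowers a ≠ ⊤ := by
      intro h
      rw [h] at hAL
      exact hLt (top_le_iff.mp hAL)
    have hgen' : ∀ N : Subgroup Γ, N.Normal → zpowers a ≤ N → N = ⊤ :=
      fun N hN h => hgen N hN (h (mem_zpowers a))
    rcases Cfsg.Agent.Lib.Helper27FlavC.main (zpowers a) hAt hgen' with h | ⟨M, hM, hAM, huniq⟩
    · apply hLt
      rw [eq_top_iff]
      refine le_trans (le_of_eq h.symm) ?_
      apply sSup_le
      rintro H ⟨hH, hHt⟩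
      have haH : a ∈ H := hH.1 (mem_zpowers a)
      have hcard : Nat.card H < n := by
        have h1 := card_lt_of_ne (le_top : H ≤ ⊤) hHt
        rw [Subgroup.card_top] at h1
        omega
      have hmain := IH _ hcard ↥H ⟨a, haH⟩ rfl (by
        intro N' hN' haN'
        have h1 : NormIn (N'.map H.subtype) H := by
          refine ⟨Subgroup.map_subtype_le _, ?_⟩
          apply le_normalizer_of
          rintro g hg _ ⟨w, hw, rfl⟩
          exact ⟨(⟨g, hg⟩ : H) * w * (⟨g, hg⟩ : H)⁻¹, hN'.conj_mem w hw _, rfl⟩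
        have h2 : zpowers a ≤ N'.map H.subtype := by
          rw [zpowers_le]
          exact ⟨⟨a, haH⟩, haN', rfl⟩
        have h3 := hH.2 _ h1 h2
        rw [eq_top_iff]
        intro y _
        have hy : (y : Γ) ∈ N'.map H.subtype := by
          rw [h3]; exact y.2
        obtain ⟨w, hw, hwy⟩ := hy
        have : w = y := Subtype.ext hwy
        rw [← this]; exact hw)
      intro y hy
      have hy' : (⟨y, hy⟩ : H) ∈ closure ({(⟨a, haH⟩ : H)} ∪
          Set.range ((F (⟨a, haH⟩ : H))^[k])) := by
        rw [hmain]; trivial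
      have hmap : (closure ({(⟨a, haH⟩ : H)} ∪
          Set.range ((F (⟨a, haH⟩ : H))^[k]))).map H.subtype ≤ L := by
        rw [MonoidHom.map_closure, closure_le]
        rintro _ ⟨w, hw, rfl⟩
        rcases hw with hw | ⟨v, rfl⟩
        · rw [Set.mem_singleton_iff] at hw
          rw [hw]; exact haL
        · have := coe_iter (⟨a, haH⟩ : H) k v
          simp only [Subgroup.coe_subtype, SetLike.mem_coe]
          rw [this]; exact hFL _
      exact hmap ⟨_, hy', rfl⟩
    · obtain ⟨K, hK, hLK⟩ := exists_coatom_ge hLt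
      have hKM : K = M := huniq K hK (hAL.trans hLK)
      subst hKM
      have haK : a ∈ K := hAM (mem_zpowers a)
      have hnn : normalizer (K : Set Γ) = K := by
        by_contra hne
        have h1 : K < normalizer (K : Set Γ) := lt_of_le_of_ne le_normalizer (Ne.symm hne)
        have h2 := hK.2 _ h1
        exact hK.1 (hgen K (normalizer_eq_top_iff.mp h2) haK)
      have hstep : ∀ x, x ∉ K → F a x ∉ K := by
        intro x hx hF
        apply hx
        have h1 : x * a * x⁻¹ ∈ K := by
          have := K.mul_mem hF haK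
          unfold F at this
          rwa [inv_mul_cancel_right] at this
        have h2 : a ∈ cj x⁻¹ K := by
          rw [mem_cj_iff, inv_inv]; exact h1
        have h3 : cj x⁻¹ K = K := huniq _ (isCoatom_cj hK x⁻¹) ((zpowers_le).mpr h2)
        have h4 : x⁻¹ ∈ normalizer (K : Set Γ) := mem_normalizer_of_cj_eq h3
        rw [hnn] at h4
        exact (K.inv_mem_iff).mp h4
      have hiter : ∀ (j : ℕ) (x : Γ), x ∉ K → (F a)^[j] x ∉ K := by
        intro j
        induction j with
        | zero => intro x hx; exact hx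
        | succ j ih =>
          intro x hx
          rw [Function.iterate_succ_apply]
          exact ih _ (hstep x hx)
      obtain ⟨x, hx⟩ : ∃ x, x ∉ K := by
        by_contra hno
        push Not at hno
        exact hK.1 (eq_top_iff.mpr (fun y _ => hno y))
      exact hiter k x hx (hLK (hFL x))

theorem gen {Γ : Type u} [Group Γ] [Finite Γ] (a : Γ)
    (h : ∀ N : Subgroup Γ, N.Normal → a ∈ N → N = ⊤) (k : ℕ) :
    closure ({a} ∪ Set.range ((F a)^[k])) = ⊤ :=
  gen_aux k _ Γ a rfl h

end Cfsg.Agent.Lib.Helper27EngA
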