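import Cfsg.Agent.Lib.Helper58Zipper

set_option autoImplicit false

/-! Flavell's theorem on subgroups with full normal closure: basic vocabulary. -/

namespace Cfsg.Agent.Lib.Helper27FlavA

open Subgroup Cfsg.Agent.Lib.Helper58Subnormal Cfsg.Agent.Lib.Helper58Zipper

variable {G : Type*} [Group G]

/-- `H` is `A`-perfect: no proper normal subgroup of `H` contains `A`. -/
def Pf (A H : Subgroup G) : Prop := A ≤ H ∧ ∀ N, NormIn N H → A ≤ N → N = H

theorem Pf.refl (A : Subgroup G) : Pf A A := ⟨le_rfl, fun _ hN hA => le_antisymm hN.1 hA⟩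

theorem Pf.trans {A S H : Subgroup G} (h1 : Pf A S) (h2 : Pf S H) : Pf A H := by
  refine ⟨h1.1.trans h2.1, fun N hN hA => h2.2 N hN ?_⟩
  have h3 : NormIn (N ⊓ S) (H ⊓ S) := hN.inf_right S
  rw [inf_eq_right.mpr h2.1] at h3
  have := h1.2 _ h3 (le_inf hA h1.1)
  exact inf_eq_right.mp this

theorem Pf.eq_of_sn {T H : Subgroup G} (h : Pf T H) (hs : Sn T H) : T = H := by
  by_contra hne
  obtain ⟨N, hN, hTN, hNH⟩ := hs.exists_normIn_of_ne hne
  exact hNH (h.2 N hN hTN.le)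

theorem exists_pf_sn_aux [Finite G] (A : Subgroup G) : ∀ (n : ℕ) (K : Subgroup G),
    Nat.card K = n → A ≤ K → ∃ S, Pf A S ∧ Sn S K := by
  intro n
  induction n using Nat.strong_induction_on with
  | _ n ih =>
    intro K hK hAK
    by_cases h : Pf A K
    · exact ⟨K, h, Sn.refl K⟩
    · unfold Pf at h
      push Not at h
      obtain ⟨N, hN, hAN, hne⟩ := h hAK
      obtain ⟨S, hS, hSN⟩ := ih _ (hK ▸ card_lt_of_ne hN.1 hne) N rfl hAN
      exact ⟨S, hS, hSN.trans hN.sn⟩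

theorem exists_pf_sn [Finite G] {A K : Subgroup G} (h : A ≤ K) : ∃ S, Pf A S ∧ Sn S K :=
  exists_pf_sn_aux A _ K rfl h

theorem cj_inv_cj (g : G) (U : Subgroup G) : cj g⁻¹ (cj g U) = U := by
  rw [cj_cj, inv_mul_cancel, cj_one]

theorem cj_cj_inv (g : G) (U : Subgroup G) : cj g (cj g⁻¹ U) = U := by
  rw [cj_cj, mul_inv_cancel, cj_one]

theorem le_cj_inv_of {g : G} {U V : Subgroup G} (h : cj g U ≤ V) : U ≤ cj g⁻¹ V := by
  have := cj_mono g⁻¹ h
  rwa [cj_inv_cj] at this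

theorem cj_le_of {g : G} {U V : Subgroup G} (h : U ≤ cj g⁻¹ V) : cj g U ≤ V := by
  have := cj_mono g h
  rwa [cj_cj_inv] at this

theorem mem_cj_iff {g y : G} {U : Subgroup G} : y ∈ cj g U ↔ g⁻¹ * y * g ∈ U := by
  constructor
  · rintro ⟨u, hu, rfl⟩
    have : g⁻¹ * (MulAut.conj g).toMonoidHom u * g = u := by
      simp only [MulEquiv.coe_toMonoidHom, MulAut.conj_apply]; group
    rw [this]; exact hu
  · intro h
    exact ⟨_, h, by simp only [MulEquiv.coe_toMonoidHom, MulAut.conj_apply]; group⟩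

theorem cj_eq_self_of_mem {g : G} {U : Subgroup G} (h : g ∈ U) : cj g U = U :=
  map_conj_eq_of_mem_normalizer (le_normalizer h)

theorem card_cj (g : G) (U : Subgroup G) : Nat.card (cj g U) = Nat.card U :=
  Nat.card_congr (U.equivMapOfInjective _ (MulAut.conj g).injective).symm.toEquiv

theorem Pf.cj {A H : Subgroup G} (h : Pf A H) (g : G) : Pf (cj g A) (cj g H) := by
  refine ⟨cj_mono g h.1, fun N hN hA => ?_⟩
  have h1 : NormIn (Helper58Zipper.cj g⁻¹ N) H := by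
    have h0 : NormIn (Helper58Zipper.cj g⁻¹ N) (Helper58Zipper.cj g⁻¹ (Helper58Zipper.cj g H)) :=
      hN.map (MulAut.conj g⁻¹).toMonoidHom
    rwa [cj_inv_cj] at h0
  have := h.2 _ h1 (le_cj_inv_of hA)
  rw [← this, cj_cj_inv]

theorem isCoatom_cj {M : Subgroup G} (h : IsCoatom M) (g : G) : IsCoatom (cj g M) := by
  refine ⟨fun ht => h.1 ((cj_eq_top_iff g M).mp ht), fun b hb => ?_⟩
  have h1 : M < cj g⁻¹ b := by
    refine lt_of_le_of_ne (le_cj_inv_of hb.le) ?_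
    rintro rfl
    rw [cj_cj_inv] at hb
    exact lt_irrefl _ hb
  exact (cj_eq_top_iff g⁻¹ b).mp (h.2 _ h1)

theorem normalizer_cj_le {B L : Subgroup G} (h : normalizer (B : Set G) ≤ L) (g : G) :
    normalizer ((cj g B : Subgroup G) : Set G) ≤ cj g L := by
  intro x hx
  rw [mem_cj_iff]
  apply h
  rw [mem_normalizer_iff]
  intro b
  have h1 := (mem_normalizer_iff.mp hx) (g * b * g⁻¹)
  rw [mem_cj_iff, mem_cj_iff] at h1
  have e1 : g⁻¹ * (g * b * g⁻¹) * g = b := by group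
  have e2 : g⁻¹ * (x * (g * b * g⁻¹) * x⁻¹) * g = g⁻¹ * x * g * b * (g⁻¹ * x * g)⁻¹ := by group
  rw [e1, e2] at h1
  exact h1

/-- the data attached to a conjugate of a minimal counterexample -/
structure Gd (n : ℕ) (B L : Subgroup G) : Prop where
  card : Nat.card B = n
  gen : ∀ N : Subgroup G, N.Normal → B ≤ N → N = ⊤
  co : IsCoatom L
  nz : normalizer (B : Set G) ≤ L
  pf : ∀ H, Pf B H → H ≠ ⊤ → H ≤ L

theorem Gd.le {n : ℕ} {B L : Subgroup G} (h : Gd n B L) : B ≤ L := le_normalizer.trans h.nz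

theorem Gd.cj {n : ℕ} {B L : Subgroup G} (h : Gd n B L) (g : G) : Gd n (cj g B) (cj g L) where
  card := (card_cj g B).trans h.card
  gen := by
    intro N hN hB
    apply h.gen N hN
    intro b hb
    have h1 : g * b * g⁻¹ ∈ N := hB ⟨b, hb, rfl⟩
    have h2 := hN.conj_mem _ h1 g⁻¹
    have e : g⁻¹ * (g * b * g⁻¹) * g⁻¹⁻¹ = b := by group
    rwa [e] at h2
  co := isCoatom_cj h.co g
  nz := normalizer_cj_le h.nz g
  pf := by
    intro H hH hHt
    have h1 : Pf B (Helper58Zipper.cj g⁻¹ H) := by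
      have := hH.cj g⁻¹
      rwa [cj_inv_cj] at this
    have h2 := h.pf _ h1 (fun ht => hHt ((cj_eq_top_iff _ _).mp ht))
    have h3 := cj_mono g h2
    rwa [cj_cj_inv] at h3

/-- the statement proved by induction -/
def Thm (T : Subgroup G) : Prop :=
  T ≠ ⊤ → (∀ N : Subgroup G, N.Normal → T ≤ N → N = ⊤) →
    sSup {H | Pf T H ∧ H ≠ ⊤} = ⊤ ∨
      ∃ M, IsCoatom M ∧ T ≤ M ∧ ∀ K, IsCoatom K → T ≤ K → K = M

end Cfsg.Agent.Lib.Helper27FlavA
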