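import Cfsg.Agent.Lib.Helper27FlavA

set_option autoImplicit false

/-! Flavell's theorem: subnormality outside the special maximal subgroup, thin pairs. -/

namespace Cfsg.Agent.Lib.Helper27FlavB

open Subgroup Cfsg.Agent.Lib.Helper58Subnormal Cfsg.Agent.Lib.Helper58Zipper
  Cfsg.Agent.Lib.Helper27FlavA

variable {G : Type*} [Group G]

theorem exists_coatom_ge [Finite G] {H : Subgroup G} (h : H ≠ ⊤) : ∃ K, IsCoatom K ∧ H ≤ K :=
  (eq_top_or_exists_le_coatom H).resolve_left h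

theorem Gd.sn [Finite G] {n : ℕ} (ih : ∀ T : Subgroup G, n < Nat.card T → Thm T)
    {B L K : Subgroup G} (h : Gd n B L) (hK : IsCoatom K) (hBK : B ≤ K) (hne : K ≠ L) :
    Sn B K := by
  obtain ⟨S, hS, hSK⟩ := exists_pf_sn hBK
  have hSt : S ≠ ⊤ := by
    rintro rfl
    exact hK.1 (top_le_iff.mp hSK.le)
  have hSL : S ≤ L := h.pf S hS hSt
  by_cases hBS : B = S
  · rw [hBS]; exact hSK
  exfalso
  have hcard : n < Nat.card S := h.card ▸ card_lt_of_ne hS.1 hBS
  rcases ih S hcard hSt (fun N hN hSN => h.gen N hN (hS.1.trans hSN)) with h1 | ⟨M, _, _, hM⟩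
  · have : sSup {H | Pf S H ∧ H ≠ ⊤} ≤ L :=
      sSup_le (fun H hH => h.pf H (hS.trans hH.1) hH.2)
    rw [h1] at this
    exact h.co.1 (top_le_iff.mp this)
  · exact hne ((hM K hK hSK.le).trans (hM L h.co hSL).symm)

theorem Gd.thin [Finite G] {n : ℕ} (ih : ∀ T : Subgroup G, n < Nat.card T → Thm T)
    {B L B' L' K₁ K₂ : Subgroup G} (h : Gd n B L) (h' : Gd n B' L') (hne : B ≠ B')
    (hK₁ : IsCoatom K₁) (hK₂ : IsCoatom K₂) (h12 : K₁ ≠ K₂) (h1 : B ⊔ B' ≤ K₁)
    (h2 : B ⊔ B' ≤ K₂) : B ⊔ B' ≤ L ⊓ L' ∧ L ≠ L' := by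
  have hTt : B ⊔ B' ≠ ⊤ := by
    intro ht
    rw [ht] at h1
    exact hK₁.1 (top_le_iff.mp h1)
  have hBT : B ≠ B ⊔ B' := by
    intro he
    have hle : B' ≤ B := by
      rw [he]; exact le_sup_right
    exact hne (eq_of_le_of_card_ge hle (by rw [h.card, h'.card])).symm
  have hcard : n < Nat.card (B ⊔ B' : Subgroup G) := h.card ▸ card_lt_of_ne le_sup_left hBT
  have hfam : sSup {H | Pf (B ⊔ B') H ∧ H ≠ ⊤} = ⊤ := by
    rcases ih _ hcard hTt (fun N hN hTN => h.gen N hN (le_sup_left.trans hTN)) with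
      h3 | ⟨M, _, _, hM⟩
    · exact h3
    · exact absurd ((hM K₁ hK₁ h1).trans (hM K₂ hK₂ h2).symm) h12
  have key : ∀ H, Pf (B ⊔ B') H → H ≠ ⊤ → H ≤ L ∨ H ≤ L' ∨ H = B ⊔ B' := by
    intro H hH hHt
    by_cases c1 : H ≤ L
    · exact Or.inl c1
    by_cases c2 : H ≤ L'
    · exact Or.inr (Or.inl c2)
    refine Or.inr (Or.inr ?_)
    obtain ⟨K, hK, hHK⟩ := exists_coatom_ge hHt
    have s1 : Sn B H := (Gd.sn ih h hK ((le_sup_left.trans hH.1).trans hHK)
      (by rintro rfl; exact c1 hHK)).of_le (le_sup_left.trans hH.1) hHK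
    have s2 : Sn B' H := (Gd.sn ih h' hK ((le_sup_right.trans hH.1).trans hHK)
      (by rintro rfl; exact c2 hHK)).of_le (le_sup_right.trans hH.1) hHK
    exact (hH.eq_of_sn (s1.sup s2)).symm
  have bound : ∀ Z : Subgroup G, Z ≠ ⊤ → ¬ (∀ H, Pf (B ⊔ B') H → H ≠ ⊤ → H ≤ Z) := by
    intro Z hZ hall
    have : sSup {H | Pf (B ⊔ B') H ∧ H ≠ ⊤} ≤ Z := sSup_le (fun H hH => hall H hH.1 hH.2)
    rw [hfam] at this
    exact hZ (top_le_iff.mp this)
  by_cases c1 : B ⊔ B' ≤ L
  · by_cases c2 : B ⊔ B' ≤ L'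
    · refine ⟨le_inf c1 c2, ?_⟩
      rintro rfl
      apply bound L h.co.1
      intro H hH hHt
      rcases key H hH hHt with k | k | k
      · exact k
      · exact k
      · rw [k]; exact c1
    · exfalso
      apply bound L h.co.1
      intro H hH hHt
      rcases key H hH hHt with k | k | k
      · exact k
      · exact absurd (hH.1.trans k) c2
      · rw [k]; exact c1
  · exfalso
    by_cases c2 : B ⊔ B' ≤ L'
    · apply bound L' h'.co.1
      intro H hH hHt
      rcases key H hH hHt with k | k | k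
      · exact absurd (hH.1.trans k) c1
      · exact k
      · rw [k]; exact c2
    · apply bound K₁ hK₁.1
      intro H hH hHt
      rcases key H hH hHt with k | k | k
      · exact absurd (hH.1.trans k) c1
      · exact absurd (hH.1.trans k) c2
      · rw [k]; exact h1

end Cfsg.Agent.Lib.Helper27FlavB
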