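import Cfsg.Agent.Lib.Helper27FlavB

set_option autoImplicit false

/-! Flavell's theorem: the final contradiction. -/

namespace Cfsg.Agent.Lib.Helper27FlavC

open Subgroup Cfsg.Agent.Lib.Helper58Subnormal Cfsg.Agent.Lib.Helper58Zipper
  Cfsg.Agent.Lib.Helper27FlavA Cfsg.Agent.Lib.Helper27FlavB

variable {G : Type*} [Group G]

theorem half [Finite G] {n : ℕ} (ih : ∀ T : Subgroup G, n < Nat.card T → Thm T)
    {A M₀ : Subgroup G} (hA : Gd n A M₀) {B L M K : Subgroup G} (h : Gd n B L)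
    (hM : IsCoatom M) (hBM : B ≤ M) (hne : M ≠ L) (hK : IsCoatom K)
    (hNK : normalizer ((sSup {C | (∃ g, C = cj g A) ∧ C ≤ M ⊓ L} : Subgroup G) : Set G) ≤ K) :
    K = M := by
  obtain ⟨S, hS⟩ : ∃ S : Set (Subgroup G), S = {U | ∃ m ∈ M, U = cj m B} := ⟨_, rfl⟩
  obtain ⟨S₀, hS₀⟩ : ∃ S₀ : Set (Subgroup G), S₀ = {U | U ∈ S ∧ U ≤ L} := ⟨_, rfl⟩
  have hcjM : ∀ m ∈ M, ∀ U : Subgroup G, U ≤ M → cj m U ≤ M := by
    intro m hm U hU
    have := cj_mono m hU
    rwa [cj_eq_self_of_mem hm] at this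
  have hJ₀ : sSup S₀ ≤ M ⊓ L := by
    apply sSup_le
    intro U hU
    rw [hS₀] at hU
    obtain ⟨hU1, hU2⟩ := hU
    rw [hS] at hU1
    obtain ⟨m, hm, rfl⟩ := hU1
    exact le_inf (hcjM m hm B hBM) hU2
  have hBS₀ : B ∈ S₀ := by
    rw [hS₀, hS]
    exact ⟨⟨1, M.one_mem, (cj_one B).symm⟩, h.le⟩
  have hWN : normalizer ((sSup S₀ : Subgroup G) : Set G) ⊓ M ≤
      normalizer ((sSup {C | (∃ g, C = cj g A) ∧ C ≤ M ⊓ L} : Subgroup G) : Set G) := by
    apply le_normalizer_sSup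
    rintro C ⟨⟨g₀, rfl⟩, hC⟩ g hg
    refine ⟨⟨g * g₀, cj_cj g g₀ A⟩, le_inf (hcjM g hg.2 _ (hC.trans inf_le_left)) ?_⟩
    apply cj_le_of
    have hB' : cj g⁻¹ B ≤ M ⊓ L := by
      have h1 : cj g⁻¹ B ≤ cj g⁻¹ (sSup S₀) := cj_mono _ (le_sSup hBS₀)
      have h2 : cj g⁻¹ (sSup S₀) = sSup S₀ := map_conj_eq_of_mem_normalizer (inv_mem hg.1)
      rw [h2] at h1
      exact h1.trans hJ₀
    by_cases hc : cj g₀ A = cj g⁻¹ B
    · rw [hc]; exact cj_mono _ h.le
    · have := (Gd.thin ih (hA.cj g₀) (h.cj g⁻¹) hc hM h.co hne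
        (sup_le (hC.trans inf_le_left) (hB'.trans inf_le_left))
        (sup_le (hC.trans inf_le_right) (hB'.trans inf_le_right))).1
      exact (le_sup_left.trans this).trans inf_le_right
  have hWK : normalizer ((sSup S₀ : Subgroup G) : Set G) ⊓ M ≤ K := hWN.trans hNK
  have hconj : ∀ U ∈ S, ∀ g ∈ M, cj g U ∈ S := by
    intro U hU g hg
    rw [hS] at hU ⊢
    obtain ⟨m, hm, rfl⟩ := hU
    exact ⟨g * m, M.mul_mem hg hm, cj_cj g m B⟩
  by_cases hc : ∃ X ∈ S, X ∉ S₀
  · obtain ⟨X, hX, hX0, hXn⟩ := exists_normalizes_join (K := M) (S := S) (S₀ := S₀)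
      (by
        intro U hU
        rw [hS] at hU
        obtain ⟨m, hm, rfl⟩ := hU
        exact (Gd.sn ih h hM hBM hne).conj (le_normalizer hm))
      hconj (by intro U hU; rw [hS₀] at hU; exact hU.1) hc
    have hX' := hX
    rw [hS] at hX'
    obtain ⟨m, hm, rfl⟩ := hX'
    by_contra hKM
    have hXM : cj m B ≤ M := hcjM m hm B hBM
    have hXW : cj m B ≤ normalizer ((sSup S₀ : Subgroup G) : Set G) ⊓ M := le_inf hXn hXM
    have hBW : B ≤ normalizer ((sSup S₀ : Subgroup G) : Set G) ⊓ M :=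
      le_inf ((le_sSup hBS₀).trans le_normalizer) hBM
    have hXB : B ≠ cj m B := by
      intro he
      apply hX0
      rw [← he]; exact hBS₀
    have := (Gd.thin ih h (h.cj m) hXB hK hM hKM (sup_le (hBW.trans hWK) (hXW.trans hWK))
      (sup_le hBM hXM)).1
    apply hX0
    rw [hS₀]
    exact ⟨hX, (le_sup_right.trans this).trans inf_le_left⟩
  · push Not at hc
    have hMn : M ≤ normalizer ((sSup S₀ : Subgroup G) : Set G) := by
      apply le_normalizer_sSup
      intro U hU g hg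
      apply hc
      rw [hS₀] at hU
      exact hconj U hU.1 g hg
    exact (hM.le_iff_eq hK.1).mp ((le_inf hMn le_rfl).trans hWK)

theorem main_aux [Finite G] : ∀ (m : ℕ) (A : Subgroup G), Nat.card G - Nat.card A = m → Thm A := by
  intro m
  induction m using Nat.strong_induction_on with
  | _ m IH =>
    intro A hm hAt hgen
    have ih : ∀ T : Subgroup G, Nat.card A < Nat.card T → Thm T := by
      intro T hT
      have hTG : Nat.card T ≤ Nat.card G := Subgroup.card_le_card_group T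
      exact IH (Nat.card G - Nat.card T) (by omega) T rfl
    by_contra hcon
    push Not at hcon
    obtain ⟨hY, huniq⟩ := hcon
    have hAY : A ≤ sSup {H | Pf A H ∧ H ≠ ⊤} := le_sSup ⟨Pf.refl A, hAt⟩
    have hNY : normalizer ((sSup {H | Pf A H ∧ H ≠ ⊤} : Subgroup G) : Set G) ≠ ⊤ := by
      intro ht
      exact hY (hgen _ (normalizer_eq_top_iff.mp ht) hAY)
    obtain ⟨M, hM, hNM⟩ := exists_coatom_ge hNY
    have hGd : Gd (Nat.card A) A M :=
      { card := rfl
        gen := hgen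
        co := hM
        nz := by
          refine le_trans ?_ hNM
          apply le_normalizer_sSup
          rintro U ⟨hU, hUt⟩ g hg
          refine ⟨?_, fun ht => hUt ((cj_eq_top_iff g U).mp ht)⟩
          have h1 := hU.cj g
          have h2 : cj g A = A := map_conj_eq_of_mem_normalizer hg
          rwa [h2] at h1
        pf := fun H hH hHt => ((le_sSup (show H ∈ {H | Pf A H ∧ H ≠ ⊤} from ⟨hH, hHt⟩)).trans
          le_normalizer).trans hNM }
    obtain ⟨K, hK, hAK, hKM⟩ := huniq M hM hGd.le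
    have hsn : Sn A K := Gd.sn ih hGd hK hAK hKM
    have hex : ∃ X ∈ {U : Subgroup G | ∃ k ∈ K, U = cj k A}, X ∉ ({A} : Set (Subgroup G)) := by
      by_contra hno
      push Not at hno
      have hKN : K ≤ normalizer (A : Set G) := by
        apply le_normalizer_of
        intro g hg w hw
        have h1 : cj g A = A := hno _ ⟨g, hg, rfl⟩
        rw [← h1]; exact ⟨w, hw, rfl⟩
      exact hKM ((hK.le_iff_eq hM.1).mp (hKN.trans hGd.nz)).symm
    obtain ⟨X, ⟨x, hx, rfl⟩, hXA, hXn⟩ := exists_normalizes_join (K := K)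
      (S := {U : Subgroup G | ∃ k ∈ K, U = cj k A}) (S₀ := {A})
      (by
        rintro U ⟨k, hk, rfl⟩
        exact hsn.conj (le_normalizer hk))
      (by
        rintro U ⟨k, hk, rfl⟩ g hg
        exact ⟨g * k, K.mul_mem hg hk, cj_cj g k A⟩)
      (by
        intro U hU
        rw [Set.mem_singleton_iff] at hU
        exact ⟨1, K.one_mem, by rw [hU, cj_one]⟩) hex
    rw [sSup_singleton] at hXn
    have hXM : cj x A ≤ M := hXn.trans hGd.nz
    have hXK : cj x A ≤ K := by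
      have := cj_mono x hAK
      rwa [cj_eq_self_of_mem hx] at this
    have hne : A ≠ cj x A := fun he => hXA (Set.mem_singleton_iff.mpr he.symm)
    obtain ⟨hT, hMM⟩ := Gd.thin ih hGd (hGd.cj x) hne hK hM hKM (sup_le hAK hXK)
      (sup_le hGd.le hXM)
    have hAJ : A ≤ sSup {C | (∃ g, C = cj g A) ∧ C ≤ M ⊓ cj x M} :=
      le_sSup ⟨⟨1, (cj_one A).symm⟩, le_sup_left.trans hT⟩
    have hJM : sSup {C | (∃ g, C = cj g A) ∧ C ≤ M ⊓ cj x M} ≤ M :=
      sSup_le (fun C hC => hC.2.trans inf_le_left)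
    have hNJ : normalizer ((sSup {C | (∃ g, C = cj g A) ∧ C ≤ M ⊓ cj x M} : Subgroup G) : Set G)
        ≠ ⊤ := by
      intro ht
      have h1 := hgen _ (normalizer_eq_top_iff.mp ht) hAJ
      rw [h1] at hJM
      exact hM.1 (top_le_iff.mp hJM)
    obtain ⟨K', hK', hNK'⟩ := exists_coatom_ge hNJ
    have e1 : K' = M := half ih hGd (hGd.cj x) hM hXM hMM hK' hNK'
    have e2 : K' = cj x M := half ih hGd hGd (hGd.cj x).co
      ((le_sup_left.trans hT).trans inf_le_right) hMM.symm hK' (by rw [inf_comm]; exact hNK')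
    exact hMM (e1.symm.trans e2)

/-- **Flavell's theorem** (ambient form). -/
theorem main [Finite G] (A : Subgroup G) : Thm A := main_aux _ A rfl

end Cfsg.Agent.Lib.Helper27FlavC
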