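import Mathlib

/-! PROJECT 4064, piece `AR` (pure arithmetic). -/

set_option autoImplicit false

namespace Cfsg.Agent.Lib.Helper27TiAR

theorem pow_eq_of_odd {a b X Y : ℕ} (hX : Odd X) (hY : Odd Y) (h : 2 ^ a * X = 2 ^ b * Y) :
    a = b := by
  have hcX : ∀ n : ℕ, Nat.Coprime (2 ^ n) X := fun n =>
    Nat.Coprime.pow_left n (Nat.coprime_two_left.mpr hX)
  have hcY : ∀ n : ℕ, Nat.Coprime (2 ^ n) Y := fun n =>
    Nat.Coprime.pow_left n (Nat.coprime_two_left.mpr hY)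
  have h1 : 2 ^ a ∣ 2 ^ b := (hcY a).dvd_of_dvd_mul_right (h ▸ Dvd.intro _ rfl)
  have h2 : 2 ^ b ∣ 2 ^ a := (hcX b).dvd_of_dvd_mul_right (h.symm ▸ Dvd.intro _ rfl)
  exact le_antisymm ((Nat.pow_dvd_pow_iff_le_right (by norm_num)).mp h1)
    ((Nat.pow_dvd_pow_iff_le_right (by norm_num)).mp h2)

theorem arith {h e m a : ℕ} (ha : h = 2 ^ a) (ha1 : 1 ≤ a) (he : Odd e)
    (hG : (h + 1) * h * e =
      (2 ^ (2 * m + 1)) ^ 2 * ((2 ^ (2 * m + 1)) ^ 2 + 1) * (2 ^ (2 * m + 1) - 1)) :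
    h = (2 ^ (2 * m + 1)) ^ 2 ∧ e = 2 ^ (2 * m + 1) - 1 := by
  set Q : ℕ := 2 ^ (2 * m + 1) with hQ
  have hQeven : Even Q := by
    rw [hQ, pow_succ]
    exact even_two.mul_left _
  have hQpos : 0 < Q := by rw [hQ]; positivity
  have hheven : Even h := by
    rw [ha]
    obtain ⟨c, rfl⟩ := Nat.exists_eq_add_of_le ha1
    rw [pow_add, pow_one]
    exact even_two.mul_right _
  have hX : Odd ((h + 1) * e) := (hheven.add_one).mul he
  have hQ1 : Odd (Q - 1) := by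
    obtain ⟨c, hc⟩ := hQeven
    have : 0 < c := by omega
    exact ⟨c - 1, by omega⟩
  have hY : Odd ((Q ^ 2 + 1) * (Q - 1)) := (((Nat.even_pow.mpr ⟨hQeven, by norm_num⟩)).add_one).mul hQ1
  have hQ2 : Q ^ 2 = 2 ^ ((2 * m + 1) * 2) := by rw [hQ, ← pow_mul]
  have key : 2 ^ a * ((h + 1) * e) = 2 ^ ((2 * m + 1) * 2) * ((Q ^ 2 + 1) * (Q - 1)) := by
    rw [← ha, ← hQ2]
    calc h * ((h + 1) * e) = (h + 1) * h * e := by ring
      _ = Q ^ 2 * (Q ^ 2 + 1) * (Q - 1) := hG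
      _ = Q ^ 2 * ((Q ^ 2 + 1) * (Q - 1)) := by ring
  have hab := pow_eq_of_odd hX hY key
  have hh : h = Q ^ 2 := by rw [ha, hQ2, hab]
  refine ⟨hh, ?_⟩
  rw [hh] at hG
  have hpos : 0 < (Q ^ 2 + 1) * Q ^ 2 := by positivity
  apply Nat.eq_of_mul_eq_mul_left hpos
  rw [hG]
  ring

end Cfsg.Agent.Lib.Helper27TiAR
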