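import Mathlib
import Cfsg.Agent.Lib.Helper16TiA

/-! PROJECT 4064, piece `NN`. -/

set_option autoImplicit false

namespace Cfsg.Agent.Lib.Helper27TiNN

open Cfsg Cfsg.Agent.Helper16Ti

variable {G : Type*} [Group G] [Finite G]

/-- an involution acting without fixed points on a normal subgroup inverts it. -/
theorem inverts {s : G} (hs2 : s * s = 1) (N : Subgroup G) [hn : N.Normal]
    (hfix : ∀ n ∈ N, Commute n s → n = 1) : ∀ n ∈ N, s * n * s⁻¹ = n⁻¹ := by
  have hsinv : s⁻¹ = s := inv_eq_of_mul_eq_one_left hs2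
  let φ : N →* N := (MulAut.conjNormal s : MulAut N).toMonoidHom
  have hφ : ∀ n : N, ((φ n : N) : G) = s * n * s⁻¹ := fun n => by
    simp [φ, MulAut.conjNormal_apply]
  have hfpf : MonoidHom.FixedPointFree φ := by
    intro n hn'
    have h1 : s * (n : G) * s⁻¹ = n := by rw [← hφ, hn']
    have h2 : Commute (n : G) s := by
      have : s * (n : G) = n * s := mul_inv_eq_iff_eq_mul.mp h1
      exact this.symm
    exact Subtype.ext (hfix n n.2 h2)
  have hinv : Function.Involutive φ := by
    intro n
    apply Subtype.ext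
    rw [hφ, hφ, hsinv]
    calc s * (s * (n : G) * s) * s = (s * s) * n * (s * s) := by group
      _ = n := by rw [hs2]; simp
  have key := MonoidHom.FixedPointFree.coe_eq_inv_of_involutive hfpf hinv
  intro n hn'
  have := congrFun key ⟨n, hn'⟩
  have h3 := congrArg Subtype.val this
  rw [hφ] at h3
  simpa using h3

theorem no_normal {t : G} (D : WData G t) {u : G} (hu1 : u ≠ 1) (hu2 : u * u = 1)
    (hut : Commute u t) (hne : u ≠ t) (N : Subgroup G) [N.Normal]
    (hN : ∀ n ∈ N, Commute n t → n = 1) : N = ⊥ := by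
  have hNu : ∀ n ∈ N, Commute n u → n = 1 := by
    intro n hn hc
    by_contra h1
    exact h1 (hN n hn (D.ct n u h1 hu1 hc hut))
  have ht := inverts D.t2 N hN
  have hu := inverts hu2 N hNu
  have htinv : t⁻¹ = t := inv_eq_of_mul_eq_one_left D.t2
  have htu1 : t * u ≠ 1 := by
    intro h
    apply hne
    have : u = t⁻¹ := (inv_eq_of_mul_eq_one_right h).symm
    rw [this, htinv]
  have htut : Commute (t * u) t := (Commute.refl t).mul_left hut
  rw [eq_bot_iff]
  intro n hn
  rw [Subgroup.mem_bot]
  by_contra h1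
  apply h1
  apply hN n hn
  apply D.ct n (t * u) h1 htu1 _ htut
  -- `t u` centralises `n`
  have h2 : t * u * n * (t * u)⁻¹ = n := by
    have : t * u * n * (t * u)⁻¹ = t * (u * n * u⁻¹) * t⁻¹ := by group
    rw [this, hu n hn, ht n⁻¹ (N.inv_mem hn), inv_inv]
  have h3 : t * u * n = n * (t * u) := mul_inv_eq_iff_eq_mul.mp h2
  exact h3.symm

end Cfsg.Agent.Lib.Helper27TiNN
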