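import Cfsg.Agent.Lib.Helper23CT0

set_option autoImplicit false

/-! PROJECT 230 (Curtis-Tits), piece W3 `gen_pres`. -/

namespace Cfsg.Agent.Lib.Helper28CTW3

open Subgroup Cfsg.Lie Cfsg.Lie.ChevalleyDatum Cfsg.Agent.Lib.Helper22ChevBasic Cfsg.Agent.Lib.Helper23CT

variable {D : ChevalleyDatum} (hD : Std D) (K : Type*) [Field K]

/-- W3 -/
theorem gen_pres : closure {g : D.CurtisTitsGroup K | ∃ i j r t, D.InRankTwoSub i j r ∧
    g = PresentedGroup.mk (D.curtisTitsRels K) (D.stX r t)} = ⊤ := by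
  rw [eq_top_iff, ← PresentedGroup.closure_range_of (D.curtisTitsRels K), closure_le]
  rintro _ ⟨⟨r, t⟩, rfl⟩
  have hst : D.stX (r : ℕ) t = FreeGroup.of (r, t) := by
    unfold ChevalleyDatum.stX
    rw [dif_pos r.2]
  by_cases h : ∃ i j, D.InRankTwoSub i j r
  · obtain ⟨i, j, hij⟩ := h
    apply Subgroup.subset_closure
    refine ⟨i, j, r, t, hij, ?_⟩
    rw [hst]
    rfl
  · have h1 : PresentedGroup.of (rels := D.curtisTitsRels K) (r, t) = 1 := by
      apply PresentedGroup.one_of_mem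
      left; left; left
      refine ⟨r, t, r.2, ?_, hst.symm⟩
      intro i j hij
      exact h ⟨i, j, hij⟩
    rw [h1]
    exact one_mem _

end Cfsg.Agent.Lib.Helper28CTW3
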