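import Cfsg.Agent.Lib.Helper27Loc
import Cfsg.Agent.Lib.Helper54CharP
import Cfsg.Agent.Lib.Helper30Hyp

/-!
# Involutions whose centralizer has characteristic 2

* `inverts_of_fpf` : a fixed-point-free involution inverts.
* `no_centralized_pComp` : if `C_H(A)` has characteristic `p` (`A` a `p`-group) then `A` centralizes no component of `H / O_{p'}(H)`.
* `pLayer_two_eq_bot` : if `C_H(z)` has characteristic 2 and `E(H) = 1` then `L_{2'}(H) = 1`.
-/

set_option autoImplicit false
set_option linter.unusedSectionVars false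

namespace Cfsg.Agent.Lib.Helper28Inv

open Subgroup Cfsg.Agent.Lib.Helper27Basic Cfsg.Agent.Lib.Helper27Core
  Cfsg.Agent.Lib.Helper27PComp Cfsg.Agent.Lib.Helper27Coprime Cfsg.Agent.Lib.Helper27Balance
  Cfsg.Agent.Lib.Helper27Rel Cfsg.Agent.Lib.Helper27Loc
open Cfsg.Agent.Lib.Helper28Comp (NormIn Sn CompIn)
open Cfsg.Agent.Lib.Helper28Layer (layerIn)
open Cfsg.Agent.Lib.Helper54CharP (CharP opIn)
open Cfsg.Agent.Lib
open scoped commutatorElement

universe u

variable {G : Type u} [Group G]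

/-- a fixed-point-free involution inverts -/
theorem inverts_of_fpf [Finite G] {z : G} (hz : z * z = 1) {R : Subgroup G}
    (hzR : z ∈ normalizer (R : Set G)) (hfix : R ⊓ centralizer ({z} : Set G) = ⊥) :
    ∀ r ∈ R, z * r * z⁻¹ = r⁻¹ := by
  have hzi : z⁻¹ = z := inv_eq_of_mul_eq_one_left hz
  let φ : R →* R :=
    { toFun := fun r => ⟨z * r * z⁻¹, (mem_normalizer_iff.mp hzR r).mp r.2⟩
      map_one' := by ext; simp
      map_mul' := fun a b => by ext; simp }
  have hφ : MonoidHom.FixedPointFree φ := by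
    intro g hg
    have h1 : z * (g : G) * z⁻¹ = g := congrArg Subtype.val hg
    have h2 : (g : G) ∈ R ⊓ centralizer ({z} : Set G) :=
      mem_inf.mpr ⟨g.2, Helper27Coprime.mem_centralizer_singleton_iff.mpr h1⟩
    rw [hfix, mem_bot] at h2
    exact Subtype.ext h2
  have h2 : Function.Involutive φ := by
    intro g
    apply Subtype.ext
    show z * (z * (g : G) * z⁻¹) * z⁻¹ = g
    rw [hzi]
    calc z * (z * (g : G) * z) * z = (z * z) * g * (z * z) := by group
      _ = g := by rw [hz]; simp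
  intro r hr
  have h3 := congrFun (hφ.coe_eq_inv_of_involutive h2) ⟨r, hr⟩
  exact congrArg Subtype.val h3

theorem comm_of_inverts {z : G} {R : Subgroup G} (hinv : ∀ r ∈ R, z * r * z⁻¹ = r⁻¹) :
    ∀ a ∈ R, ∀ b ∈ R, a * b = b * a := by
  intro a ha b hb
  have h1 := hinv (a * b) (mul_mem ha hb)
  have h2 : z * (a * b) * z⁻¹ = (z * a * z⁻¹) * (z * b * z⁻¹) := by group
  rw [h2, hinv a ha, hinv b hb, mul_inv_rev] at h1
  have h3 := congrArg (fun t => t⁻¹) h1
  simp only [mul_inv_rev, inv_inv] at h3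
  exact h3.symm

/-- commutators with an inverting element centralize -/
theorem commutator_mem_centralizer_of_inverts {z h : G} {R : Subgroup G}
    (hinv : ∀ r ∈ R, z * r * z⁻¹ = r⁻¹) (hz : z * z = 1) (hh : h ∈ normalizer (R : Set G)) :
    ⁅h, z⁆ ∈ centralizer (R : Set G) := by
  have hzi : z⁻¹ = z := inv_eq_of_mul_eq_one_left hz
  rw [mem_centralizer_iff]
  intro r hr
  have hs : h⁻¹ * r * h ∈ R := (mem_normalizer_iff''.mp hh r).mp hr
  have h1 := hinv r hr
  have h2 := hinv _ hs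
  rw [hzi] at h1 h2
  -- `⁅h,z⁆ r ⁅h,z⁆⁻¹ = r`
  have h3 : ⁅h, z⁆ * r * ⁅h, z⁆⁻¹ = r := by
    have e1 : ⁅h, z⁆ * r * ⁅h, z⁆⁻¹ = h * (z * (h⁻¹ * (z * r * z) * h) * z) * h⁻¹ := by
      simp only [commutatorElement_def, hzi, mul_inv_rev, inv_inv]
      group
    have e2 : h⁻¹ * r⁻¹ * h = (h⁻¹ * r * h)⁻¹ := by group
    have e3 : z * (h⁻¹ * r * h)⁻¹ * z = h⁻¹ * r * h := by
      generalize h⁻¹ * r * h = s at h2
      have e4 : z * s⁻¹ * z = (z * s * z)⁻¹ := by
        rw [mul_inv_rev, mul_inv_rev, hzi, mul_assoc]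
      rw [e4, h2, inv_inv]
    rw [e1, h1, e2, e3]
    group
  calc r * ⁅h, z⁆ = (⁅h, z⁆ * r * ⁅h, z⁆⁻¹) * ⁅h, z⁆ := by rw [h3]
    _ = ⁅h, z⁆ * r := by group

section PComp

variable {H : Type u} [Group H] [Finite H] {p : ℕ} [hp : Fact p.Prime]

local notation "π" => QuotientGroup.mk' (Cfsg.pPrimeCore p H)

theorem CP.charP {K : Subgroup H} (h : CP p K) : CharP p K :=
  Helper54CharP.gfit_eq_pCore_iff.mp ((CP_iff K).mp h)

theorem mem_core_iff {x : H} : x ∈ Cfsg.pPrimeCore p H ↔ π x = 1 := by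
  rw [← MonoidHom.mem_ker, QuotientGroup.ker_mk']

/-- If `C_H(A)` has characteristic `p`, the `p`-group `A` centralizes no component of `H / O_{p'}(H)`. -/
theorem no_centralized_pComp {A : Subgroup H} (hA : IsPGroup p A)
    (hCP : CP p (centralizer (A : Set H))) {K : Subgroup H} (hK : Cfsg.IsPComponent p K)
    (hcent : ⁅A.map π, K.map π⁆ = ⊥) : False := by
  have hQ : QS (K.map π) := (isComponent_iff.mp hK.2.1).2
  set T : Subgroup H := (K.map π).comap π ⊓ centralizer (A : Set H) with hT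
  have hTsn : Sn T (centralizer (A : Set H)) := by
    have h1 : Sn ((K.map π).comap π) ⊤ := Helper28Comp.sn_top_iff.mpr (hK.2.1.1.comap _)
    have h2 := h1.inf_right (centralizer (A : Set H))
    rwa [top_inf_eq] at h2
  have hTc : CharP p T := (CP.charP hCP).of_sn hTsn
  have hTmap : T.map π = K.map π := by
    apply le_antisymm
    · rintro _ ⟨t, ht, rfl⟩
      exact (mem_inf.mp ht).1
    · rintro _ ⟨k, hk, rfl⟩
      have hx : ∀ a ∈ A, k⁻¹ * (a * k * a⁻¹) ∈ Cfsg.pPrimeCore p H := by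
        intro a ha
        have h1 := comm_eq_bot_iff.mp hcent (π a) ⟨a, ha, rfl⟩ (π k) ⟨k, hk, rfl⟩
        rw [mem_core_iff, map_mul, map_mul, map_mul, map_inv, map_inv, h1]
        group
      obtain ⟨n, hn, hfix⟩ := exists_fixed_in_coset (p := p) (N := Cfsg.pPrimeCore p H) hA
        (coprime_iff_not_dvd.mp (card_pPrimeCore_coprime p)) le_normalizer_of_normal k hx
      have hkn : π (k * n) = π k := by
        rw [map_mul, mem_core_iff.mp hn, mul_one]
      refine ⟨k * n, mem_inf.mpr ⟨?_, ?_⟩, hkn⟩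
      · rw [mem_comap, hkn]
        exact ⟨k, hk, rfl⟩
      · rw [mem_centralizer_iff]
        intro a ha
        have := hfix a ha
        calc a * (k * n) = (a * (k * n) * a⁻¹) * a := by group
          _ = k * n * a := by rw [this]
  have hPT : NormIn (opIn p T) T := Helper54CharP.opIn_normIn p T
  have hPp : IsPGroup p (opIn p T) := Helper54CharP.opIn_isPGroup p T
  have hPK : (opIn p T).map π ≤ K.map π := hTmap ▸ map_mono hPT.1
  have hKN : K.map π ≤ normalizer (((opIn p T).map π : Subgroup _) : Set _) := by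
    rw [← hTmap]
    exact (map_mono hPT.2).trans (le_normalizer_map π)
  have hnotp : ¬ IsPGroup p (K.map π) := fun h => hQ.not_solvable (isSolvable_of_isPGroup h)
  rcases hQ.2.2 _ hPK hKN with h | h
  · exact hnotp (h ▸ hPp.map π)
  · have h1 : ⁅opIn p T, T⁆ ≤ Cfsg.pPrimeCore p H := by
      apply comm_le_core_of_map_comm
      rw [hTmap]
      exact h
    have h2 : ⁅opIn p T, T⁆ ≤ opIn p T := le_normalizer_iff_commutator_le_left.mp hPT.2
    have h3 : opIn p T ⊓ Cfsg.pPrimeCore p H = ⊥ :=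
      eq_bot_of_isPGroup_of_coprime (hPp.to_le inf_le_left)
        (Nat.Coprime.coprime_dvd_left (card_dvd_of_le inf_le_right) (card_pPrimeCore_coprime p))
    have h4 : ⁅opIn p T, T⁆ = ⊥ := le_bot_iff.mp (h3 ▸ le_inf h2 h1)
    have h5 : T ≤ opIn p T := by
      intro t ht
      apply hTc
      refine mem_inf.mpr ⟨ht, ?_⟩
      rw [mem_centralizer_iff]
      intro x hx
      exact comm_eq_bot_iff.mp h4 x hx t ht
    exact hnotp (hTmap ▸ (hPp.to_le h5).map π)

end PComp

section Two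

variable {H : Type u} [Group H] [Finite H]

local notation "π" => QuotientGroup.mk' (Cfsg.pPrimeCore 2 H)

/-- If `z` is an involution of `H` with `C_H(z)` of characteristic 2 and `E(H) = 1`, then `L_{2'}(H) = 1`. -/
theorem pLayer_two_eq_bot {z : H} (hz : z * z = 1)
    (hC : CP 2 (centralizer ({z} : Set H))) (hE : Cfsg.layer H = ⊥) : Cfsg.pLayer 2 H = ⊥ := by
  have : Fact (Nat.Prime 2) := ⟨Nat.prime_two⟩
  rw [pLayer_eq_bot_iff]
  intro K hK
  have hzi : z⁻¹ = z := inv_eq_of_mul_eq_one_left hz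
  have hRodd : (Nat.card (Cfsg.pPrimeCore 2 H)).Coprime 2 := card_pPrimeCore_coprime 2
  have hnorm : ∀ h : H, h ∈ normalizer ((Cfsg.pPrimeCore 2 H : Subgroup H) : Set H) :=
    fun h => le_normalizer_of_normal (mem_top h)
  have hfix : Cfsg.pPrimeCore 2 H ⊓ centralizer ({z} : Set H) = ⊥ := by
    apply hC.eq_bot
    · refine ⟨inf_le_right, ?_⟩
      refine le_trans ?_ inf_normalizer_le_normalizer_inf
      exact le_inf (fun h _ => hnorm h) le_normalizer
    · exact Nat.Coprime.coprime_dvd_left (card_dvd_of_le inf_le_left) hRodd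
  have hinv := inverts_of_fpf hz (hnorm z) hfix
  have hRab : Cfsg.pPrimeCore 2 H ≤ centralizer ((Cfsg.pPrimeCore 2 H : Subgroup H) : Set H) := by
    intro a ha
    rw [mem_centralizer_iff]
    intro b hb
    exact comm_of_inverts hinv b hb a ha
  have hCn : (centralizer ((Cfsg.pPrimeCore 2 H : Subgroup H) : Set H)).Normal := inferInstance
  have hkey : ∀ h : H, ⁅h, z⁆ ∈ centralizer ((Cfsg.pPrimeCore 2 H : Subgroup H) : Set H) :=
    fun h => commutator_mem_centralizer_of_inverts hinv hz (hnorm h)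
  have hQ : QS (K.map π) := (isComponent_iff.mp hK.2.1).2
  -- the main claim
  have hKC : K ≤ centralizer ((Cfsg.pPrimeCore 2 H : Subgroup H) : Set H) := by
    have hfin : K.map π ≤ (centralizer ((Cfsg.pPrimeCore 2 H : Subgroup H) : Set H)).map π →
        K ≤ centralizer ((Cfsg.pPrimeCore 2 H : Subgroup H) : Set H) := by
      intro h
      exact (le_sup_core_of_map_le h).trans (sup_le le_rfl hRab)
    by_cases hne : cj z K = K
    · -- `z` normalizes `K`
      have hzK : z ∈ normalizer (K : Set H) := mem_normalizer_of_cj_eq hne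
      have hs : (K ⊓ centralizer ((Cfsg.pPrimeCore 2 H : Subgroup H) : Set H)).IsSubnormal :=
        hK.1.inf hCn.isSubnormal
      have hmem : ∀ k ∈ K, ⁅k, z⁆ ∈ K ⊓ centralizer ((Cfsg.pPrimeCore 2 H : Subgroup H) : Set H) := by
        intro k hk
        refine mem_inf.mpr ⟨?_, hkey k⟩
        have e : ⁅k, z⁆ = k * (z * k⁻¹ * z⁻¹) := by simp only [commutatorElement_def]; group
        rw [e]
        exact mul_mem hk ((mem_normalizer_iff.mp hzK _).mp (inv_mem hk))
      rcases hQ.subnormal (map_mono inf_le_left)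
        (hs.map (QuotientGroup.mk'_surjective _)).subgroupOf with h | h
      · have := hK.2.2 _ hs inf_le_left h
        exact inf_eq_left.mp this
      · exfalso
        -- `π z` centralizes `K.map π`
        have h1 : ⁅(zpowers z).map π, K.map π⁆ ≤
            (K ⊓ centralizer ((Cfsg.pPrimeCore 2 H : Subgroup H) : Set H)).map π := by
          rw [commutator_le]
          rintro _ ⟨y, hy, rfl⟩ _ ⟨k, hk, rfl⟩
          obtain ⟨n, rfl⟩ := mem_zpowers_iff.mp hy
          have hz2 : z ^ (2 : ℤ) = 1 := by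
            rw [show (2 : ℤ) = 1 + 1 from rfl, zpow_add, zpow_one, hz]
          rcases Int.even_or_odd' n with ⟨m, rfl | rfl⟩
          · rw [zpow_mul, hz2, one_zpow, map_one, commutatorElement_one_left]
            exact one_mem _
          · rw [zpow_add, zpow_mul, hz2, one_zpow, one_mul, zpow_one, ← map_commutatorElement]
            refine mem_map_of_mem _ ?_
            rw [← commutatorElement_inv]
            exact inv_mem (hmem k hk)
        have h2 : ⁅⁅(zpowers z).map π, K.map π⁆, K.map π⁆ = ⊥ :=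
          comm_eq_bot_mono h h1 le_rfl
        have h3 : ⁅(zpowers z).map π, K.map π⁆ = ⊥ :=
          comm_eq_bot_symm (comm_eq_bot_of_perfect hQ.perfect h2)
        have hA : IsPGroup 2 (zpowers z) :=
          isPGroup_zpowers_of_pow_eq_one (by rw [pow_two, hz])
        have hC' : CP 2 (centralizer ((zpowers z : Subgroup H) : Set H)) := by
          rw [← centralizer_singleton_eq]
          exact hC
        exact no_centralized_pComp hA hC' hK h3
    · -- `z` moves `K`
      apply hfin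
      have hK' := isPComponent_cj hK z
      have hcomm : ⁅(cj z K).map π, K.map π⁆ = ⊥ :=
        comp_comm hK'.2.1 hK.2.1 (fun h => hne (pComp_unique hK' hK h))
      rw [← hQ.perfect, commutator_le]
      rintro _ ⟨k₁, hk₁, rfl⟩ _ ⟨k₂, hk₂, rfl⟩
      have hv : π (z * k₁⁻¹ * z⁻¹) * π k₂ = π k₂ * π (z * k₁⁻¹ * z⁻¹) :=
        comm_eq_bot_iff.mp hcomm _ ⟨_, conj_mem_cj (inv_mem hk₁), rfl⟩ _ ⟨k₂, hk₂, rfl⟩
      have e1 : ⁅π k₁, π k₂⁆ = π ⁅⁅k₁, z⁆, k₂⁆ := by
        have e : ⁅k₁, z⁆ = k₁ * (z * k₁⁻¹ * z⁻¹) := by simp only [commutatorElement_def]; group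
        rw [e, map_commutatorElement, map_mul]
        generalize π (z * k₁⁻¹ * z⁻¹) = v at hv
        generalize π k₁ = u
        generalize π k₂ = w at hv
        simp only [commutatorElement_def, mul_inv_rev]
        have : u * v * w * (v⁻¹ * u⁻¹) * w⁻¹ = u * (v * w * v⁻¹) * u⁻¹ * w⁻¹ := by group
        rw [this, hv]
        group
      rw [e1]
      refine mem_map_of_mem _ ?_
      have e2 : ⁅⁅k₁, z⁆, k₂⁆ = ⁅k₁, z⁆ * (k₂ * ⁅k₁, z⁆⁻¹ * k₂⁻¹) := by
        simp only [commutatorElement_def]; group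
      rw [e2]
      exact mul_mem (hkey k₁) (hCn.conj_mem _ (inv_mem (hkey k₁)) k₂)
  have hQS : QS K := by
    rw [pComp_QS_iff hK]
    rw [comm_eq_bot_iff]
    intro a ha b hb
    exact (mem_centralizer_iff.mp (hKC ha) b (mem_inf.mp hb).1).symm
  have hcomp : Cfsg.IsComponent K := isComponent_iff.mpr ⟨hK.1, hQS⟩
  have hle : K ≤ Cfsg.layer H := le_sSup hcomp
  rw [hE, le_bot_iff] at hle
  exact hQS.ne_bot hle

end Two

section Main

variable [Finite G]

theorem normalizer_zpowers_of_sq {c : G} (hc : c * c = 1) :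
    normalizer ((zpowers c : Subgroup G) : Set G) = centralizer ({c} : Set G) := by
  apply le_antisymm
  · intro g hg
    have h1 : g * c * g⁻¹ ∈ zpowers c := (mem_normalizer_iff.mp hg c).mp (mem_zpowers c)
    obtain ⟨n, hn⟩ := mem_zpowers_iff.mp h1
    have hc2 : c ^ (2 : ℤ) = 1 := by
      rw [show (2 : ℤ) = 1 + 1 from rfl, zpow_add, zpow_one, hc]
    rw [Helper27Coprime.mem_centralizer_singleton_iff]
    have h2 : g * c * g⁻¹ = c := by
      rcases Int.even_or_odd' n with ⟨m, rfl | rfl⟩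
      · rw [zpow_mul, hc2, one_zpow] at hn
        have h3 : c = 1 := by
          have : c = g⁻¹ * (g * c * g⁻¹) * g := by group
          rw [this, ← hn]; group
        rw [h3]; group
      · rw [zpow_add, zpow_mul, hc2, one_zpow, one_mul, zpow_one] at hn
        exact hn.symm
    calc c * g * c⁻¹ = (g * c * g⁻¹) * g * c⁻¹ := by rw [h2]
      _ = g := by group
  · rw [centralizer_singleton_eq]
    exact centralizer_le_normalizer' _

theorem CP_inf {z c : G} (hCz : CP 2 (centralizer ({z} : Set G))) (hc : c * c = 1)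
    (hcz : c * z = z * c) : CP 2 (centralizer ({c} : Set G) ⊓ centralizer ({z} : Set G)) := by
  have : Fact (Nat.Prime 2) := ⟨Nat.prime_two⟩
  have h := hCz.normalizer (P := zpowers c)
    (isPGroup_zpowers_of_pow_eq_one (by rw [pow_two, hc]))
    (by rw [zpowers_le, Subgroup.mem_centralizer_singleton_iff, hcz])
  rwa [normalizer_zpowers_of_sq hc] at h

theorem pLayer_centralizer_eq_bot {z c : G} (hz : z * z = 1) (hc : c * c = 1)
    (hcz : c * z = z * c) (hCz : CP 2 (centralizer ({z} : Set G)))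
    (hE : Cfsg.layer ↥(centralizer ({c} : Set G)) = ⊥) :
    Cfsg.pLayer 2 ↥(centralizer ({c} : Set G)) = ⊥ := by
  have hzc : z ∈ centralizer ({c} : Set G) := by
    rw [Subgroup.mem_centralizer_singleton_iff, hcz]
  apply pLayer_two_eq_bot (z := ⟨z, hzc⟩) (Subtype.ext hz) _ hE
  rw [← CP_map (centralizer ({c} : Set G)).subtype_injective]
  have e : (centralizer ({(⟨z, hzc⟩ : centralizer ({c} : Set G))} : Set (centralizer ({c} : Set G)))).map
      (centralizer ({c} : Set G)).subtype = centralizer ({c} : Set G) ⊓ centralizer ({z} : Set G) := by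
    ext x
    constructor
    · rintro ⟨y, hy, rfl⟩
      refine mem_inf.mpr ⟨y.2, ?_⟩
      rw [SetLike.mem_coe, Subgroup.mem_centralizer_singleton_iff] at hy
      rw [Subgroup.mem_centralizer_singleton_iff]
      exact congrArg Subtype.val hy
    · intro hx
      obtain ⟨h1, h2⟩ := mem_inf.mp hx
      refine ⟨⟨x, h1⟩, ?_, rfl⟩
      rw [SetLike.mem_coe, Subgroup.mem_centralizer_singleton_iff]
      rw [Subgroup.mem_centralizer_singleton_iff] at h2
      exact Subtype.ext h2
  rw [e]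
  exact CP_inf hCz hc hcz

theorem exists_ne_one_of_hyperplanes {Y B B' : Subgroup G} (h8 : 8 ≤ Nat.card Y) (hB : B ≤ Y)
    (_hB' : B' ≤ Y) (h : B.relIndex Y ≤ 2) (h' : B'.relIndex Y ≤ 2) :
    ∃ c ∈ B ⊓ B', c ≠ 1 := by
  by_contra hcon
  push Not at hcon
  have hbot : B ⊓ B' = ⊥ := by
    rw [eq_bot_iff]
    intro c hc
    exact mem_bot.mpr (hcon c hc)
  have h1 : (B ⊓ B').relIndex Y ≤ B.relIndex Y * B'.relIndex Y := relIndex_inf_le
  have h2 : Nat.card (B ⊓ B' : Subgroup G) * (B ⊓ B').relIndex Y = Nat.card Y :=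
    card_mul_relIndex (inf_le_left.trans hB)
  rw [hbot, card_bot, one_mul] at h2
  rw [hbot] at h1
  have h3 : B.relIndex Y * B'.relIndex Y ≤ 2 * 2 := Nat.mul_le_mul h h'
  omega

/-- The special case of the signalizer functor theorem where some `C(z)` has characteristic 2. -/
theorem odd_card_iSup_core {Y : Subgroup G} (hY : Cfsg.IsElementaryAbelian 2 Y)
    (h8 : 8 ≤ Nat.card Y)
    (hE : ∀ x ∈ Y, x ≠ 1 → Cfsg.layer ↥(centralizer ({x} : Set G)) = ⊥)
    {z : G} (hzY : z ∈ Y) (hz1 : z ≠ 1) (hCz : CP 2 (centralizer ({z} : Set G))) :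
    Odd (Nat.card ↥(⨆ y : {y : G // y ∈ Y ∧ y ≠ 1}, coreIn 2 (centralizer ({(y : G)} : Set G)))) := by
  have : Fact (Nat.Prime 2) := ⟨Nat.prime_two⟩
  have hsq : ∀ y ∈ Y, y * y = 1 := by
    intro y hy; rw [← pow_two]; exact hY.2 y hy
  have hcomm : ∀ a ∈ Y, ∀ b ∈ Y, a * b = b * a := by
    intro a ha b hb
    exact congrArg Subtype.val (hY.1.is_comm.comm ⟨a, ha⟩ ⟨b, hb⟩)
  have hL : ∀ c ∈ Y, c ≠ 1 → Cfsg.pLayer 2 ↥(centralizer ({c} : Set G)) = ⊥ :=
    fun c hc hc1 => pLayer_centralizer_eq_bot (hsq z hzY) (hsq c hc) (hcomm c hc z hzY) hCz (hE c hc hc1)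
  have hbal : ∀ a ∈ Y, ∀ b ∈ Y, b ≠ 1 →
      coreIn 2 (centralizer ({a} : Set G)) ⊓ centralizer ({b} : Set G)
        ≤ coreIn 2 (centralizer ({b} : Set G)) :=
    fun a ha b hb hb1 => coreIn_centralizer_balance (hY.2 a ha) (hcomm a ha b hb) (hL b hb hb1)
  have hYC : ∀ y ∈ Y, Y ≤ centralizer ({y} : Set G) := by
    intro y hy a ha
    rw [Subgroup.mem_centralizer_singleton_iff]
    exact hcomm a ha y hy
  have hYN : ∀ y ∈ Y, Y ≤ normalizer ((coreIn 2 (centralizer ({y} : Set G)) : Subgroup G) : Set G) :=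
    fun y hy => (hYC y hy).trans (coreIn_normIn _).2
  have hfix : ∀ y ∈ Y, coreIn 2 (centralizer ({y} : Set G)) ⊓ centralizer ({z} : Set G) = ⊥ := by
    intro y hy
    have := hbal y hy z hzY hz1
    rwa [hCz.2, le_bot_iff] at this
  have hinv : ∀ y ∈ Y, ∀ r ∈ coreIn 2 (centralizer ({y} : Set G)), z * r * z⁻¹ = r⁻¹ :=
    fun y hy => inverts_of_fpf (hsq z hzY) (hYN y hy hzY) (hfix y hy)
  have hab : ∀ y ∈ Y, ∀ a ∈ coreIn 2 (centralizer ({y} : Set G)),
      ∀ b ∈ coreIn 2 (centralizer ({y} : Set G)), a * b = b * a :=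
    fun y hy => comm_of_inverts (hinv y hy)
  have hodd : ∀ y : G, ¬ 2 ∣ Nat.card (coreIn 2 (centralizer ({y} : Set G))) :=
    fun y => coprime_iff_not_dvd.mp (card_coreIn_coprime _)
  have hpair : ∀ y₁ ∈ Y, ∀ y₂ ∈ Y, coreIn 2 (centralizer ({y₂} : Set G)) ≤
      centralizer ((coreIn 2 (centralizer ({y₁} : Set G)) : Subgroup G) : Set G) := by
    intro y₁ h₁ y₂ h₂
    have g₁ := Helper30Hyp.le_iSup_hyperplane_centralizers hY.1 hY.2 (hodd y₁) (hYN y₁ h₁)
    have g₂ := Helper30Hyp.le_iSup_hyperplane_centralizers hY.1 hY.2 (hodd y₂) (hYN y₂ h₂)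
    refine le_trans ?_ (centralizer_le g₁)
    refine g₂.trans (iSup_le fun B' => ?_)
    rw [le_centralizer_iff]
    refine iSup_le fun B => ?_
    obtain ⟨c, hc, hc1⟩ := exists_ne_one_of_hyperplanes h8 B.2.1 B'.2.1 B.2.2 B'.2.2
    have hcY : c ∈ Y := B.2.1 (mem_inf.mp hc).1
    intro a ha
    rw [mem_centralizer_iff]
    intro b hb
    have ha' : a ∈ coreIn 2 (centralizer ({c} : Set G)) := by
      apply hbal y₁ h₁ c hcY hc1
      refine mem_inf.mpr ⟨(mem_inf.mp ha).1, ?_⟩
      rw [Subgroup.mem_centralizer_singleton_iff]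
      exact (mem_centralizer_iff.mp (mem_inf.mp ha).2 c (mem_inf.mp hc).1).symm
    have hb' : b ∈ coreIn 2 (centralizer ({c} : Set G)) := by
      apply hbal y₂ h₂ c hcY hc1
      refine mem_inf.mpr ⟨(mem_inf.mp hb).1, ?_⟩
      rw [Subgroup.mem_centralizer_singleton_iff]
      exact (mem_centralizer_iff.mp (mem_inf.mp hb).2 c (mem_inf.mp hc).2).symm
    exact hab c hcY b hb' a ha'
  set W := ⨆ y : {y : G // y ∈ Y ∧ y ≠ 1}, coreIn 2 (centralizer ({(y : G)} : Set G)) with hW
  have hWc : W ≤ centralizer (W : Set G) := by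
    refine iSup_le fun y => ?_
    rw [le_centralizer_iff]
    refine iSup_le fun y' => ?_
    exact hpair y.1 y.2.1 y'.1 y'.2.1
  have hall : ∀ w ∈ W, w ∈ W ∧ (orderOf w).Coprime 2 := by
    intro w hw
    refine iSup_induction (C := fun w => w ∈ W ∧ (orderOf w).Coprime 2) _ hw ?_ ?_ ?_
    · intro y x hx
      refine ⟨le_iSup (fun y : {y : G // y ∈ Y ∧ y ≠ 1} =>
        coreIn 2 (centralizer ({(y : G)} : Set G))) y hx, ?_⟩
      exact Nat.Coprime.coprime_dvd_left (by
        have := orderOf_dvd_natCard (⟨x, hx⟩ : coreIn 2 (centralizer ({(y : G)} : Set G)))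
        rwa [← orderOf_coe] at this) (card_coreIn_coprime _)
    · exact ⟨one_mem _, by simp⟩
    · rintro x y ⟨hx, hx2⟩ ⟨hy, hy2⟩
      refine ⟨mul_mem hx hy, ?_⟩
      have hc : Commute x y := (mem_centralizer_iff.mp (hWc hy) x hx)
      exact Nat.Coprime.coprime_dvd_left
        (hc.orderOf_mul_dvd_lcm.trans (Nat.lcm_dvd_mul _ _)) (Nat.Coprime.mul_left hx2 hy2)
  by_contra hcon
  rw [Nat.not_odd_iff_even, even_iff_two_dvd] at hcon
  obtain ⟨t, ht⟩ := exists_prime_orderOf_dvd_card' 2 hcon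
  have h1 := (hall t t.2).2
  rw [orderOf_coe, ht] at h1
  norm_num at h1

end Main

section Norm

theorem cj_centralizer_singleton (k y : G) :
    cj k (centralizer ({y} : Set G)) = centralizer ({k * y * k⁻¹} : Set G) := by
  ext x
  rw [mem_cj, Subgroup.mem_centralizer_singleton_iff, Subgroup.mem_centralizer_singleton_iff]
  constructor
  · intro h
    calc x * (k * y * k⁻¹) = k * ((k⁻¹ * x * k) * y) * k⁻¹ := by group
      _ = k * (y * (k⁻¹ * x * k)) * k⁻¹ := by rw [h]
      _ = k * y * k⁻¹ * x := by group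
  · intro h
    calc k⁻¹ * x * k * y = k⁻¹ * (x * (k * y * k⁻¹)) * k := by group
      _ = k⁻¹ * (k * y * k⁻¹ * x) * k := by rw [h]
      _ = y * (k⁻¹ * x * k) := by group

theorem normalizer_le_normalizer_iSup_core (p : ℕ) [Fact p.Prime] (Y : Subgroup G) :
    normalizer (Y : Set G) ≤ normalizer
      ((⨆ y : {y : G // y ∈ Y ∧ y ≠ 1}, coreIn p (centralizer ({(y : G)} : Set G)) : Subgroup G) : Set G) := by
  apply le_normalizer_of_cj_le
  intro k hk
  show Subgroup.map _ _ ≤ _
  rw [Subgroup.map_iSup]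
  refine iSup_le fun y => ?_
  have h1 : k * y.1 * k⁻¹ ∈ Y := (mem_normalizer_iff.mp hk _).mp y.2.1
  have h2 : k * y.1 * k⁻¹ ≠ 1 := by
    intro h
    apply y.2.2
    have : y.1 = k⁻¹ * (k * y.1 * k⁻¹) * k := by group
    rw [this, h]; group
  have h3 : (coreIn p (centralizer ({(y : G)} : Set G))).map (MulAut.conj k).toMonoidHom =
      coreIn p (centralizer ({k * y.1 * k⁻¹} : Set G)) := by
    rw [coreIn_map (MulAut.conj k).injective]
    congr 1
    exact cj_centralizer_singleton k y.1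
  rw [h3]
  exact le_iSup (fun y : {y : G // y ∈ Y ∧ y ≠ 1} => coreIn p (centralizer ({(y : G)} : Set G)))
    ⟨k * y.1 * k⁻¹, h1, h2⟩

end Norm

end Cfsg.Agent.Lib.Helper28Inv
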