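import Cfsg.Agent.Lib.Helper43SpDefs

set_option autoImplicit false

/-! Project 243, piece `dval`. -/

namespace Cfsg.Agent.Lib.Helper36SpDval

open Matrix Cfsg.Agent.Lib.Helper43St Cfsg.Agent.Lib.Helper43Sp

variable {m : ℕ} {F : Type*} [Field F]

theorem Dm_eq (d : Fin m → Fˣ) : (Dm d : Matrix (I m) (I m) F) =
    Matrix.fromBlocks (Matrix.diagonal fun i => ((d i : Fˣ) : F)) 0 0
      (Matrix.diagonal fun i => (((d i)⁻¹ : Fˣ) : F)) := by
  rw [Matrix.fromBlocks_diagonal, Dm]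
  congr 1
  funext a
  cases a <;> simp [chi]

theorem Dm_mem (d : Fin m → Fˣ) : (Dm d : Matrix (I m) (I m) F) ∈ Matrix.symplecticGroup (Fin m) F := by
  rw [SymplecticGroup.mem_iff, Dm_eq, Matrix.J, Matrix.fromBlocks_transpose,
    Matrix.fromBlocks_multiply, Matrix.fromBlocks_multiply]
  simp only [Matrix.diagonal_transpose, Matrix.transpose_zero, mul_zero, zero_mul, add_zero,
    zero_add, mul_neg, mul_one, neg_mul, Matrix.diagonal_mul_diagonal]
  have e1 : (Matrix.diagonal fun i => ((d i : Fˣ) : F) * (((d i)⁻¹ : Fˣ) : F)) = (1 : Matrix (Fin m) (Fin m) F) := by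
    rw [← Matrix.diagonal_one]
    congr 1
    funext i
    rw [← Units.val_mul, mul_inv_cancel, Units.val_one]
  have e2 : (Matrix.diagonal fun i => (((d i)⁻¹ : Fˣ) : F) * ((d i : Fˣ) : F)) = (1 : Matrix (Fin m) (Fin m) F) := by
    rw [← Matrix.diagonal_one]
    congr 1
    funext i
    rw [← Units.val_mul, inv_mul_cancel, Units.val_one]
  rw [e1, e2, neg_zero]

theorem D_val (d : Fin m → Fˣ) : ((D d : Sp m F) : Matrix (I m) (I m) F) = Dm d := by
  unfold D
  rw [dif_pos (Dm_mem d)]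

theorem chi_mul (d d' : Fin m → Fˣ) (a : I m) : chi (d * d') a = chi d a * chi d' a := by
  cases a <;> simp [chi, mul_comm]

theorem chi_one (a : I m) : chi (1 : Fin m → Fˣ) a = 1 := by
  cases a <;> simp [chi]

theorem Dm_mul (d d' : Fin m → Fˣ) : (Dm (d * d') : Matrix (I m) (I m) F) = Dm d * Dm d' := by
  unfold Dm
  rw [Matrix.diagonal_mul_diagonal]
  congr 1
  funext a
  rw [chi_mul, Units.val_mul]

theorem D_mul (d d' : Fin m → Fˣ) : (D (d * d') : Sp m F) = D d * D d' := by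
  apply Subtype.ext
  rw [Submonoid.coe_mul, D_val, D_val, D_val, Dm_mul]

theorem D_one : (D (1 : Fin m → Fˣ) : Sp m F) = 1 := by
  apply Subtype.ext
  rw [D_val, Dm, Submonoid.coe_one, ← Matrix.diagonal_one]
  congr 1
  funext a
  rw [chi_one, Units.val_one]

theorem D_pow (d : Fin m → Fˣ) (k : ℕ) : (D d : Sp m F) ^ k = D (d ^ k) := by
  induction k with
  | zero => rw [pow_zero, pow_zero, D_one]
  | succ k ih => rw [pow_succ, pow_succ, ih, D_mul]

theorem D_inv (d : Fin m → Fˣ) : (D d : Sp m F)⁻¹ = D d⁻¹ := by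
  rw [inv_eq_iff_mul_eq_one, ← D_mul, mul_inv_cancel, D_one]

end Cfsg.Agent.Lib.Helper36SpDval
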