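import Cfsg.Agent.Lib.Helper36SpDval
import Cfsg.Agent.Lib.Helper36SpXbasic

set_option autoImplicit false

/-! Project 243, piece `dx` (the piece `xval` is the extra hypothesis `X_val` at the end). -/

namespace Cfsg.Agent.Lib.Helper36SpDx

open Matrix Cfsg.Agent.Lib.Helper43St Cfsg.Agent.Lib.Helper43Sp Cfsg.Agent.Lib.Helper36SpDval
  Cfsg.Agent.Lib.Helper36SpXbasic

variable {m : ℕ} {F : Type*} [Field F]

theorem diag_single_diag {ι : Type*} [Fintype ι] [DecidableEq ι] (v w : ι → F) (a b : ι) (t : F) :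
    Matrix.diagonal v * Matrix.single a b t * Matrix.diagonal w = Matrix.single a b (v a * t * w b) := by
  ext i j
  rw [Matrix.mul_diagonal, Matrix.diagonal_mul]
  by_cases h : a = i ∧ b = j
  · obtain ⟨rfl, rfl⟩ := h
    rw [Matrix.single_apply_same, Matrix.single_apply_same]
  · rw [Matrix.single_apply_of_ne _ _ _ _ _ h, Matrix.single_apply_of_ne _ _ _ _ _ h, mul_zero,
      zero_mul]

theorem chi_ng (d : Fin m → Fˣ) (a : I m) : chi d (ng a) = (chi d a)⁻¹ := by
  cases a <;> simp [chi, ng]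

theorem chi_inv (d : Fin m → Fˣ) (a : I m) : chi d⁻¹ a = (chi d a)⁻¹ := by
  cases a <;> simp [chi]

theorem Dm_Xm (d : Fin m → Fˣ) (a b : I m) (t : F) :
    (Dm d : Matrix (I m) (I m) F) * Xm a b t * Dm d⁻¹
      = Xm a b ((chi d a : F) * ((chi d b : Fˣ) : F)⁻¹ * t) := by
  have h1 : (Dm d : Matrix (I m) (I m) F) * 1 * Dm d⁻¹ = 1 := by
    rw [mul_one, ← Dm_mul, mul_inv_cancel]
    have := congrArg (fun g : Sp m F => (g : Matrix (I m) (I m) F)) (D_one (m := m) (F := F))
    simpa [D_val] using this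
  have h2 : ∀ (p q : I m) (s : F), (Dm d : Matrix (I m) (I m) F) * Matrix.single p q s * Dm d⁻¹
      = Matrix.single p q ((chi d p : F) * ((chi d q : Fˣ) : F)⁻¹ * s) := by
    intro p q s
    unfold Dm
    rw [diag_single_diag, chi_inv, Units.val_inv_eq_inv_val]
    congr 1
    ring
  unfold Xm
  split_ifs with hb
  · rw [mul_add, add_mul, h1, h2]
  · rw [mul_sub, mul_add, sub_mul, add_mul, h1, h2, h2, chi_ng, chi_ng, Units.val_inv_eq_inv_val,
      Units.val_inv_eq_inv_val, inv_inv]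
    congr 2
    ring

theorem D_X (d : Fin m → Fˣ) (a b : I m) (h : a ≠ b) (t : F)
    (X_val : ∀ (a b : I m), a ≠ b → ∀ t : F,
      ((X a b t : Sp m F) : Matrix (I m) (I m) F) = Xm a b t) :
    (D d : Sp m F) * X a b t * (D d)⁻¹ = X a b ((chi d a : F) * ((chi d b : Fˣ) : F)⁻¹ * t) := by
  rw [D_inv]
  apply Subtype.ext
  rw [Submonoid.coe_mul, Submonoid.coe_mul, D_val, D_val, X_val a b h, X_val a b h, Dm_Xm]

end Cfsg.Agent.Lib.Helper36SpDx
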