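import Cfsg.Agent.Lib.Helper43SpDefs
import Cfsg.Agent.Lib.Helper39SpXchain

set_option autoImplicit false
set_option linter.unusedSimpArgs false

namespace Cfsg.Agent.Lib.Helper39SpXs4

open Matrix Cfsg.Agent.Lib.Helper43St Cfsg.Agent.Lib.Helper43Sp Cfsg.Agent.Lib.Helper39SpXchain

variable {m : ℕ} {F : Type*} [Field F]

theorem sg_ng (a : I m) : sg F (ng a) = - sg F a := by
  rcases a with a | a <;> simp [sg, ng]

theorem Xm_long (a : I m) (t : F) : Xm a (ng a) t = 1 + Matrix.single a (ng a) t := by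
  unfold Xm
  rw [if_pos rfl]

/-- the matrix unit -/
def Eu (F : Type*) [Field F] (i j : I m) : Matrix (I m) (I m) F := Matrix.single i j 1

theorem key (i j : I m) (x : F) : Matrix.single i j x = x • Eu F i j := by
  rw [Eu, Matrix.smul_single, smul_eq_mul, mul_one]

theorem Xm_short' (a b : I m) (h : ab a ≠ ab b) (t : F) :
    Xm a (ng b) t = 1 + Matrix.single a (ng b) t + Matrix.single b (ng a) (sg F a * sg F b * t) := by
  rw [Xm_short a (ng b) (by rw [ab_ng]; exact h), ng_ng, sg_ng]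
  simp only [key]
  module

-- piece `xs4` (both)
theorem X_s4 (a b : I m) (hab : ab a ≠ ab b) (s t : F)
    (X_val : ∀ (a b : I m) (_ : a ≠ b) (t : F),
      ((X a b t : Sp m F) : Matrix (I m) (I m) F) = Xm a b t)
    (X_inv : ∀ (a b : I m) (t : F), (X a b t : Sp m F)⁻¹ = X a b (-t)) :
    (X a b s : Sp m F) * X b (ng b) t * (X a b s)⁻¹ =
      X a (ng b) (s * t) * X a (ng a) (sg F a * sg F b * s ^ 2 * t) * X b (ng b) t := by
  apply Subtype.ext
  rw [X_inv]
  have e1 := ne_of_ab hab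
  have e4 := ne_ng_of_ab hab
  have e7 := ng_ne_of_ab hab
  have e10 := ng_ne_ng_of_ab hab
  have n1 := ng_ne a
  have n2 := ng_ne b
  simp only [MulMemClass.coe_mul, X_val _ _ e1, X_val _ _ n1.symm, X_val _ _ n2.symm,
    X_val _ _ e4, Xm_short _ _ hab, Xm_short' _ _ hab, Xm_long]
  simp only [mul_add, add_mul, mul_sub, sub_mul, mul_one, one_mul, Matrix.single_mul_single_same,
    Matrix.single_mul_single_of_ne, ne_eq, e1, e4, e7, e10, n1, n2,
    e1.symm, e4.symm, e7.symm, e10.symm, n1.symm, n2.symm, not_false_eq_true, sub_zero, add_zero,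
    zero_add, zero_sub, mul_zero, zero_mul]
  simp only [key]
  module

theorem X_s4' (a b : I m) (hab : ab a ≠ ab b) (s t : F)
    (X_val : ∀ (a b : I m) (_ : a ≠ b) (t : F),
      ((X a b t : Sp m F) : Matrix (I m) (I m) F) = Xm a b t)
    (X_inv : ∀ (a b : I m) (t : F), (X a b t : Sp m F)⁻¹ = X a b (-t)) :
    (X b (ng b) t : Sp m F) * X a b s * (X b (ng b) t)⁻¹ =
      X a b s * X a (ng b) (-(s * t)) * X a (ng a) (sg F a * sg F b * s ^ 2 * t) := by
  apply Subtype.ext
  rw [X_inv]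
  have e1 := ne_of_ab hab
  have e4 := ne_ng_of_ab hab
  have e7 := ng_ne_of_ab hab
  have e10 := ng_ne_ng_of_ab hab
  have n1 := ng_ne a
  have n2 := ng_ne b
  simp only [MulMemClass.coe_mul, X_val _ _ e1, X_val _ _ n1.symm, X_val _ _ n2.symm,
    X_val _ _ e4, Xm_short _ _ hab, Xm_short' _ _ hab, Xm_long]
  simp only [mul_add, add_mul, mul_sub, sub_mul, mul_one, one_mul, Matrix.single_mul_single_same,
    Matrix.single_mul_single_of_ne, ne_eq, e1, e4, e7, e10, n1, n2,
    e1.symm, e4.symm, e7.symm, e10.symm, n1.symm, n2.symm, not_false_eq_true, sub_zero, add_zero,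
    zero_add, zero_sub, mul_zero, zero_mul]
  simp only [key]
  module

end Cfsg.Agent.Lib.Helper39SpXs4
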