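import Cfsg.Agent.Lib.Helper43SpDefs
import Cfsg.Agent.Lib.Helper84SpXval

set_option autoImplicit false
set_option linter.unusedSimpArgs false

/-! Project 243, piece `xs5`. -/

namespace Cfsg.Agent.Lib.Helper84SpXs5

open Matrix Cfsg.Agent.Lib.Helper43St Cfsg.Agent.Lib.Helper43Sp Cfsg.Agent.Lib.Helper84SpXval

variable {m : ℕ} {F : Type*} [Field F]

-- piece `xs5`
theorem X_s5 (a b : I m) (hab : ab a ≠ ab b) (s t : F) :
    (X a b s : Sp m F) * X b (ng a) t * (X a b s)⁻¹ * (X b (ng a) t)⁻¹ = X a (ng a) (2 * s * t) := by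
  rw [mul_inv_eq_iff_eq_mul, mul_inv_eq_iff_eq_mul]
  have n1 : a ≠ b := ne_of_ab hab
  have n2 : b ≠ ng a := (ng_ne_of_ab hab).symm
  have n3 : a ≠ ng a := ne_ng a
  have n4 : b ≠ a := n1.symm
  have n5 : ng a ≠ b := n2.symm
  have n6 : ng a ≠ a := ng_ne a
  have n7 : ng a ≠ ng b := fun e => n1 (ng_inj.1 e)
  have n8 : ng b ≠ a := fun e => n2 (ng_eq_iff.1 e)
  have n9 : ng a ≠ ng b := n7
  apply Subtype.ext
  change ((X a b s : Sp m F) : Matrix (I m) (I m) F) * ((X b (ng a) t : Sp m F) : Matrix (I m) (I m) F)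
    = ((X a (ng a) (2 * s * t) : Sp m F) : Matrix (I m) (I m) F) *
      ((X b (ng a) t : Sp m F) : Matrix (I m) (I m) F) * ((X a b s : Sp m F) : Matrix (I m) (I m) F)
  rw [X_val a b n1, X_val b (ng a) n2, X_val a (ng a) n3, Xm_eq, Xm_eq, Xm_eq]
  rw [if_neg n2, if_neg n7, if_pos rfl]
  simp only [ng_ng, sg_ng, Matrix.single_zero, sub_zero]
  simp only [add_mul, sub_mul, mul_sub, mul_add, one_mul, mul_one, Matrix.single_mul_single_same,
      Matrix.single_mul_single_of_ne _ _ _ _ n1, Matrix.single_mul_single_of_ne _ _ _ _ n2,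
      Matrix.single_mul_single_of_ne _ _ _ _ n3, Matrix.single_mul_single_of_ne _ _ _ _ n4,
      Matrix.single_mul_single_of_ne _ _ _ _ n5, Matrix.single_mul_single_of_ne _ _ _ _ n6,
      Matrix.single_mul_single_of_ne _ _ _ _ n7, Matrix.single_mul_single_of_ne _ _ _ _ n8]
  have e1 : sg F b * -sg F a * t * (sg F a * sg F b * s) = - (s * t) := by
    have := sg_mul_self (F := F) a
    have := sg_mul_self (F := F) b
    linear_combination (-(s * t) * (sg F b * sg F b)) * sg_mul_self (F := F) a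
      - (s * t) * sg_mul_self (F := F) b
  rw [e1]
  have e2 : Matrix.single a (ng a) (2 * s * t) =
      Matrix.single a (ng a) (s * t) + Matrix.single a (ng a) (s * t) := by
    rw [← Matrix.single_add]; congr 1; ring
  rw [e2, ← Matrix.single_neg]
  simp only [zero_mul]
  abel

end Cfsg.Agent.Lib.Helper84SpXs5
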