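import Cfsg.Agent.Lib.Helper43SpDefs
import Cfsg.Agent.Lib.Helper84SpXval
import Cfsg.Agent.Lib.Helper36SpXbasic
import Cfsg.Agent.Lib.Helper84SpXcomm
import Cfsg.Agent.Lib.Helper39SpXchain
import Cfsg.Agent.Lib.Helper84SpXs5
import Cfsg.Agent.Lib.Helper39SpXs4
import Cfsg.Agent.Lib.Helper36SpDval
import Cfsg.Agent.Lib.Helper36SpDx

set_option autoImplicit false

/-! Project 243: hypothesis free versions (exact statements of `notes/helper43/SkelM.lean.txt`) of the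
landed pieces `xval xbasic xcomm xchain xs5 xs4 dval dx`. -/

namespace Cfsg.Agent.Lib.Helper65SpAPI

open Matrix Cfsg.Agent.Lib.Helper43St Cfsg.Agent.Lib.Helper43Sp

variable {m : ℕ} {F : Type*} [Field F]

theorem X_val (a b : I m) (h : a ≠ b) (t : F) : ((X a b t : Sp m F) : Matrix (I m) (I m) F) = Xm a b t :=
  Cfsg.Agent.Lib.Helper84SpXval.X_val a b h t

theorem X_add (a b : I m) (h : a ≠ b) (s t : F) : (X a b (s + t) : Sp m F) = X a b s * X a b t :=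
  Cfsg.Agent.Lib.Helper36SpXbasic.X_add a b h s t X_val
theorem X_zero (a b : I m) : (X a b 0 : Sp m F) = 1 := Cfsg.Agent.Lib.Helper36SpXbasic.X_zero a b
theorem X_inv (a b : I m) (t : F) : (X a b t : Sp m F)⁻¹ = X a b (-t) :=
  Cfsg.Agent.Lib.Helper36SpXbasic.X_inv a b t X_val
theorem X_inj (a b : I m) (h : a ≠ b) (s t : F) (hst : (X a b s : Sp m F) = X a b t) : s = t :=
  Cfsg.Agent.Lib.Helper36SpXbasic.X_inj a b h s t hst X_val
theorem X_sym (a b : I m) (h : ab a ≠ ab b) (t : F) :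
    (X a b t : Sp m F) = X (ng b) (ng a) (-(sg F a * sg F b * t)) :=
  Cfsg.Agent.Lib.Helper36SpXbasic.X_sym a b h t X_val
theorem X_pow (a b : I m) (h : a ≠ b) (t : F) (k : ℕ) : (X a b t : Sp m F) ^ k = X a b (k * t) :=
  Cfsg.Agent.Lib.Helper36SpXbasic.X_pow a b h t k X_val

theorem X_comm (a b c d : I m) (hab : a ≠ b) (hcd : c ≠ d) (h1 : b ≠ c) (h2 : a ≠ d)
    (h3 : b ≠ ng d) (h4 : a ≠ ng c) (s t : F) : Commute (X a b s : Sp m F) (X c d t) :=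
  Cfsg.Agent.Lib.Helper84SpXcomm.X_comm a b c d hab hcd h1 h2 h3 h4 s t

theorem X_chain (a b c : I m) (hab : ab a ≠ ab b) (hbc : ab b ≠ ab c) (hac : ab a ≠ ab c) (s t : F) :
    (X a b s : Sp m F) * X b c t * (X a b s)⁻¹ * (X b c t)⁻¹ = X a c (s * t) :=
  Cfsg.Agent.Lib.Helper39SpXchain.X_chain a b c hab hbc hac s t X_val X_inv

theorem X_s5 (a b : I m) (hab : ab a ≠ ab b) (s t : F) :
    (X a b s : Sp m F) * X b (ng a) t * (X a b s)⁻¹ * (X b (ng a) t)⁻¹ = X a (ng a) (2 * s * t) :=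
  Cfsg.Agent.Lib.Helper84SpXs5.X_s5 a b hab s t

theorem X_s4 (a b : I m) (hab : ab a ≠ ab b) (s t : F) :
    (X a b s : Sp m F) * X b (ng b) t * (X a b s)⁻¹ =
      X a (ng b) (s * t) * X a (ng a) (sg F a * sg F b * s ^ 2 * t) * X b (ng b) t :=
  Cfsg.Agent.Lib.Helper39SpXs4.X_s4 a b hab s t X_val X_inv
theorem X_s4' (a b : I m) (hab : ab a ≠ ab b) (s t : F) :
    (X b (ng b) t : Sp m F) * X a b s * (X b (ng b) t)⁻¹ =
      X a b s * X a (ng b) (-(s * t)) * X a (ng a) (sg F a * sg F b * s ^ 2 * t) :=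
  Cfsg.Agent.Lib.Helper39SpXs4.X_s4' a b hab s t X_val X_inv

theorem D_val (d : Fin m → Fˣ) : ((D d : Sp m F) : Matrix (I m) (I m) F) = Dm d :=
  Cfsg.Agent.Lib.Helper36SpDval.D_val d
theorem D_mul (d d' : Fin m → Fˣ) : (D (d * d') : Sp m F) = D d * D d' :=
  Cfsg.Agent.Lib.Helper36SpDval.D_mul d d'
theorem D_one : (D (1 : Fin m → Fˣ) : Sp m F) = 1 := Cfsg.Agent.Lib.Helper36SpDval.D_one
theorem D_pow (d : Fin m → Fˣ) (k : ℕ) : (D d : Sp m F) ^ k = D (d ^ k) :=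
  Cfsg.Agent.Lib.Helper36SpDval.D_pow d k

theorem D_X (d : Fin m → Fˣ) (a b : I m) (h : a ≠ b) (t : F) :
    (D d : Sp m F) * X a b t * (D d)⁻¹ = X a b ((chi d a : F) * ((chi d b : Fˣ) : F)⁻¹ * t) :=
  Cfsg.Agent.Lib.Helper36SpDx.D_X d a b h t X_val

end Cfsg.Agent.Lib.Helper65SpAPI
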