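import Cfsg.Agent.Lib.Helper43SpDefs2
import Cfsg.Agent.Lib.Helper65SpAPI

set_option autoImplicit false

/-! Project 243, piece `dld`. -/

namespace Cfsg.Agent.Lib.Helper28SpDld

open Matrix Cfsg.Agent.Lib.Helper43BP Cfsg.Agent.Lib.Helper43St Cfsg.Agent.Lib.Helper43Sp
open Cfsg.Agent.Lib.Helper65SpAPI

variable {m : ℕ} {F : Type*} [Field F] {P : Type*} [Group P] (G : GC m F P)

theorem commute_conj {P : Type*} [Group P] (u a b : P) (h : Commute a b) :
    Commute (u * a * u⁻¹) (u * b * u⁻¹) := by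
  show u * a * u⁻¹ * (u * b * u⁻¹) = u * b * u⁻¹ * (u * a * u⁻¹)
  have : a * b = b * a := h
  calc u * a * u⁻¹ * (u * b * u⁻¹) = u * (a * b) * u⁻¹ := by group
    _ = u * (b * a) * u⁻¹ := by rw [this]
    _ = _ := by group

-- piece `dld`
theorem long_dis (a : I 2) (ha : ab a = 0) (t : F) (g : Sp 2 F)
    (hgen : Subgroup.closure ({g : Sp 2 F | ∃ (a : I 2) (t : F), ab a = 0 ∧ g = X a (ng a) t} ∪
      {PM F (Equiv.swap 0 1), vv F}) = ⊤)
    (hquad : ∀ (σ : Equiv.Perm (Fin (m + 3))) (c d : I 2) (_ : c ≠ d) (t : F),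
      G.θ σ * G.ι (X c d t) * (G.θ σ)⁻¹ = G.x (e2 (σ 0) (σ 1) c) (e2 (σ 0) (σ 1) d) t)
    (hequiv : ∀ (ρ : Equiv.Perm (Fin (m + 3))) (a b : I (m + 3)) (_ : a ≠ b) (t : F),
      G.θ ρ * G.x a b t * (G.θ ρ)⁻¹ = G.x (pmI ρ a) (pmI ρ b) t) :
    Commute (G.θ (Equiv.swap 0 2) * G.ι (X a (ng a) t) * (G.θ (Equiv.swap 0 2))⁻¹) (G.ι g) := by
  have hne : ∀ c : I 2, c ≠ ng c := by
    intro c; rcases c with c | c <;> simp [ng]
  have h02 : (0 : Fin (m + 3)) ≠ 2 := by
    intro h; have := congrArg Fin.val h; rw [Fin.val_two] at this; simp at this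
  have h12 : (1 : Fin (m + 3)) ≠ 2 := by
    intro h; have := congrArg Fin.val h; rw [Fin.val_two] at this; simp at this
  have h01 : (0 : Fin (m + 3)) ≠ 1 := by
    intro h; have := congrArg Fin.val h; simp at this
  -- the long root element at the index 2
  set L := G.θ (Equiv.swap 0 2) * G.ι (X a (ng a) t) * (G.θ (Equiv.swap 0 2))⁻¹ with hL
  have hL1 : L = G.x (Sum.map (fun _ => (2 : Fin (m + 3))) (fun _ => (2 : Fin (m + 3))) a)
      (Sum.map (fun _ => (2 : Fin (m + 3))) (fun _ => (2 : Fin (m + 3))) (ng a)) t := by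
    rw [hL, hquad _ _ _ (hne a)]
    rcases a with a | a <;> simp only [ab, Sum.elim_inl, Sum.elim_inr, id] at ha <;> subst ha <;>
      simp [e2, ng]
  have hmem : g ∈ Subgroup.closure ({g : Sp 2 F | ∃ (a : I 2) (t : F), ab a = 0 ∧ g = X a (ng a) t} ∪
      {PM F (Equiv.swap 0 1), vv F}) := by rw [hgen]; exact Subgroup.mem_top g
  induction hmem using Subgroup.closure_induction with
  | mem g hg =>
    rcases hg with ⟨a', t', ha', rfl⟩ | hg | hg
    · -- both in the image of the quad (0, 2)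
      have e1 : G.ι (X a' (ng a') t') =
          G.θ (Equiv.swap 1 2) * G.ι (X a' (ng a') t') * (G.θ (Equiv.swap 1 2))⁻¹ := by
        have h1 := hquad 1 a' (ng a') (hne a') t'
        have h2 := hquad (Equiv.swap 1 2) a' (ng a') (hne a') t'
        rw [map_one, one_mul, inv_one, mul_one] at h1
        rw [h2, h1]
        rcases a' with a' | a' <;> simp only [ab, Sum.elim_inl, Sum.elim_inr, id] at ha' <;>
          subst ha' <;> simp [e2, ng, Equiv.swap_apply_of_ne_of_ne h01 h02]
      have e2' : L = G.θ (Equiv.swap 1 2) *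
          G.ι (X (Sum.map (fun _ => (1 : Fin 2)) (fun _ => (1 : Fin 2)) a)
            (ng (Sum.map (fun _ => (1 : Fin 2)) (fun _ => (1 : Fin 2)) a)) t) *
          (G.θ (Equiv.swap 1 2))⁻¹ := by
        rw [hL1, hquad _ _ _ (hne _)]
        rcases a with a | a <;> simp [e2, ng]
      rw [e1, e2']
      apply commute_conj
      apply Commute.map _ G.ι
      apply X_comm _ _ _ _ (hne _) (hne _)
      all_goals
        rcases a with a | a <;> rcases a' with a' | a' <;>
          simp only [ab, Sum.elim_inl, Sum.elim_inr, id] at ha' <;> subst ha' <;> simp [ng]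
    · rw [hg, ← G.k1]
      have h2 : G.θ (Equiv.swap 0 1) * L * (G.θ (Equiv.swap 0 1))⁻¹ = L := by
        rw [hL1, hequiv _ _ _ (by rcases a with a | a <;> simp [ng])]
        rcases a with a | a <;>
          simp [pmI, ng, Equiv.swap_apply_of_ne_of_ne h02.symm h12.symm]
      have h3 : G.θ (Equiv.swap 0 1) * L = L * G.θ (Equiv.swap 0 1) :=
        mul_inv_eq_iff_eq_mul.mp h2
      exact h3.symm
    · rw [Set.mem_singleton_iff] at hg
      rw [hg]
      exact G.k4 a ha t
  | one => rw [map_one]; exact Commute.one_right _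
  | mul x y _ _ hx hy => rw [map_mul]; exact hx.mul_right hy
  | inv x _ hx => rw [map_inv]; exact hx.inv_right

end Cfsg.Agent.Lib.Helper28SpDld
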