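import Cfsg.Agent.Lib.Helper43SpDefs2
import Cfsg.Agent.Lib.Helper65SpAPI
import Cfsg.Agent.Lib.Helper28SpDld

set_option autoImplicit false

/-! Project 243, piece `ddis`. -/

namespace Cfsg.Agent.Lib.Helper28SpDdis

open Matrix Cfsg.Agent.Lib.Helper43BP Cfsg.Agent.Lib.Helper43St Cfsg.Agent.Lib.Helper43Sp
open Cfsg.Agent.Lib.Helper65SpAPI Cfsg.Agent.Lib.Helper28SpDld

variable {m : ℕ} {F : Type*} [Field F] {P : Type*} [Group P] (G : GC m F P)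

theorem eq_ng {n : ℕ} {a b : I n} (hab : a ≠ b) (h : ab a = ab b) : b = ng a := by
  rcases a with a | a <;> rcases b with b | b <;> simp only [ab, Sum.elim_inl, Sum.elim_inr, id] at h <;>
    subst h <;> simp_all [ng]

theorem ne_ng {n : ℕ} (c : I n) : c ≠ ng c := by
  rcases c with c | c <;> simp [ng]

-- piece `ddis`
theorem g_dis (a b c d : I (m + 3)) (hab : a ≠ b) (hcd : c ≠ d) (h1 : ab a ≠ ab c) (h2 : ab a ≠ ab d)
    (h3 : ab b ≠ ab c) (h4 : ab b ≠ ab d) (s t : F)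
    (hext2 : ∀ i j : Fin (m + 3), i ≠ j → ∃ σ : Equiv.Perm (Fin (m + 3)), σ 0 = i ∧ σ 1 = j)
    (hext3 : ∀ i j k : Fin (m + 3), i ≠ j → i ≠ k → j ≠ k →
      ∃ ρ : Equiv.Perm (Fin (m + 3)), ρ 0 = i ∧ ρ 1 = j ∧ ρ 2 = k)
    (hws : ∀ (σ : Equiv.Perm (Fin (m + 3))) (a b : I (m + 3)) (_ : σ 0 = ab a) (_ : σ 1 = ab b)
      (t : F), G.θ σ * G.ι (X (lw 0 a) (lw 1 b) t) * (G.θ σ)⁻¹ = G.x a b t)
    (hwl : ∀ (σ : Equiv.Perm (Fin (m + 3))) (a : I (m + 3)) (_ : σ 0 = ab a) (t : F),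
      G.θ σ * G.ι (X (lw 0 a) (ng (lw 0 a)) t) * (G.θ σ)⁻¹ = G.x a (ng a) t)
    (hld : ∀ (a : I 2) (_ : ab a = 0) (t : F) (g : Sp 2 F),
      Commute (G.θ (Equiv.swap 0 2) * G.ι (X a (ng a) t) * (G.θ (Equiv.swap 0 2))⁻¹) (G.ι g))
    (hsd : ∀ (σ : Equiv.Perm (Fin (m + 3))) (_ : σ 0 ≠ 0) (_ : σ 0 ≠ 1) (_ : σ 1 ≠ 0)
      (_ : σ 1 ≠ 1) (g g' : Sp 2 F), Commute (G.ι g) (G.θ σ * G.ι g' * (G.θ σ)⁻¹))
    (hquad : ∀ (σ : Equiv.Perm (Fin (m + 3))) (c d : I 2) (_ : c ≠ d) (t : F),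
      G.θ σ * G.ι (X c d t) * (G.θ σ)⁻¹ = G.x (e2 (σ 0) (σ 1) c) (e2 (σ 0) (σ 1) d) t) :
    Commute (G.x a b s) (G.x c d t) := by
  -- long / short
  have LS : ∀ (a c d : I (m + 3)) (s t : F), ab c ≠ ab d → ab a ≠ ab c → ab a ≠ ab d →
      Commute (G.x a (ng a) s) (G.x c d t) := by
    intro a c d s t hcd h1 h2
    obtain ⟨ρ, r0, r1, r2⟩ := hext3 (ab c) (ab d) (ab a) hcd h1.symm h2.symm
    rw [← hws ρ c d r0 r1 t, ← hwl (ρ * Equiv.swap 0 2) a (by simp [r2]) s]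
    have e : G.θ (ρ * Equiv.swap 0 2) * G.ι (X (lw 0 a) (ng (lw 0 a)) s) *
        (G.θ (ρ * Equiv.swap 0 2))⁻¹ = G.θ ρ * (G.θ (Equiv.swap 0 2) *
          G.ι (X (lw 0 a) (ng (lw 0 a)) s) * (G.θ (Equiv.swap 0 2))⁻¹) * (G.θ ρ)⁻¹ := by
      rw [map_mul]; group
    rw [e]
    apply commute_conj
    apply hld
    rcases a with a | a <;> simp [lw, ab]
  by_cases hA : ab a = ab b
  · have hb := eq_ng hab hA
    subst hb
    by_cases hC : ab c = ab d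
    · have hd := eq_ng hcd hC
      subst hd
      obtain ⟨σ, s0, s1⟩ := hext2 (ab a) (ab c) h1
      rw [← hwl σ a s0 s]
      have e : G.x c (ng c) t = G.θ σ * G.ι (X (lw 1 c) (ng (lw 1 c)) t) * (G.θ σ)⁻¹ := by
        rw [hquad σ _ _ (ne_ng _), s1]
        rcases c with c | c <;> simp [e2, lw, ng, ab]
      rw [e]
      apply commute_conj
      apply Commute.map _ G.ι
      apply X_comm _ _ _ _ (ne_ng _) (ne_ng _)
      all_goals
        rcases a with a | a <;> rcases c with c | c <;> simp [ng, lw]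
    · exact LS a c d s t hC h1 h2
  · by_cases hC : ab c = ab d
    · have hd := eq_ng hcd hC
      subst hd
      exact (LS c a b t s hA h1.symm h3.symm).symm
    · obtain ⟨ρ, r0, r1⟩ := hext2 (ab a) (ab b) hA
      obtain ⟨ρ', r0', r1'⟩ := hext2 (ab c) (ab d) hC
      rw [← hws ρ a b r0 r1 s, ← hws ρ' c d r0' r1' t]
      have e : G.θ ρ' * G.ι (X (lw 0 c) (lw 1 d) t) * (G.θ ρ')⁻¹ =
          G.θ ρ * (G.θ (ρ⁻¹ * ρ') * G.ι (X (lw 0 c) (lw 1 d) t) * (G.θ (ρ⁻¹ * ρ'))⁻¹) *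
            (G.θ ρ)⁻¹ := by
        rw [map_mul, map_inv]; group
      rw [e]
      apply commute_conj
      have key : ∀ (u v : Fin (m + 3)), ρ v ≠ ρ' u → (ρ⁻¹ * ρ') u ≠ v := by
        intro u v h h'
        apply h
        rw [← h']
        simp
      apply hsd
      · exact key 0 0 (by rw [r0, r0']; exact h1)
      · exact key 0 1 (by rw [r1, r0']; exact h3)
      · exact key 1 0 (by rw [r0, r1']; exact h2)
      · exact key 1 1 (by rw [r1, r1']; exact h4)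

end Cfsg.Agent.Lib.Helper28SpDdis
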