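import Cfsg.Agent.Lib.Helper43SpDefs2
import Cfsg.Agent.Lib.Helper36SpPmval

set_option autoImplicit false

/-! Project 243, piece `ehatq`. -/

namespace Cfsg.Agent.Lib.Helper28SpEhatq

open Matrix Cfsg.Agent.Lib.Helper43BP Cfsg.Agent.Lib.Helper43St Cfsg.Agent.Lib.Helper43Sp
open Cfsg.Agent.Lib.Helper36SpPmval

variable (m : ℕ) (F : Type*) [Field F] (a1 a2 b1 b2 c1 c2 : Equiv.Perm (Fin (m + 3))) (ζ : F)

theorem rel_mem (a : Equiv.Perm (Fin (m + 3))) (ha : a = a1 ∨ a = a2) :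
    cjw (jr (PM F (Equiv.swap 0 1))) (aw F a) * (aw F (Equiv.swap 0 1 * a * Equiv.swap 0 1))⁻¹ ∈
      relS m F a1 a2 b1 b2 c1 c2 ζ := by
  classical
  unfold relS
  simp only [Finset.mem_union]
  refine Or.inl (Or.inl (Or.inl (Or.inl (Or.inl (Or.inl ?_)))))
  rw [Finset.mem_image]
  refine ⟨a, ?_, rfl⟩
  rcases ha with rfl | rfl <;> simp

-- piece `ehatq`
theorem relS_hat (ha1 : a1 ∈ alternatingGroup (Fin (m + 3)))
    (ha2 : a2 ∈ alternatingGroup (Fin (m + 3)))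
    (ha : alternatingGroup (Fin (m + 3)) ≤ Subgroup.closure ({a1, a2} : Set (Equiv.Perm (Fin (m + 3)))))
    (hhat : ∀ (τ : Equiv.Perm (Fin (m + 3))) (_ : Equiv.Perm.sign τ = -1) (_ : τ * τ = 1)
      (θ0 : ↥(alternatingGroup (Fin (m + 3))) →*
        (CQ m F ⧸ Subgroup.normalClosure (↑(relS m F a1 a2 b1 b2 c1 c2 ζ) : Set (CQ m F))))
      (s : CQ m F ⧸ Subgroup.normalClosure (↑(relS m F a1 a2 b1 b2 c1 c2 ζ) : Set (CQ m F)))
      (_ : s * s = 1)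
      (_ : ∀ (a : ↥(alternatingGroup (Fin (m + 3)))) (ha : τ * a.1 * τ ∈ alternatingGroup (Fin (m + 3))),
        s * θ0 a * s⁻¹ = θ0 ⟨τ * a.1 * τ, ha⟩),
      ∃ θ : Equiv.Perm (Fin (m + 3)) →*
          (CQ m F ⧸ Subgroup.normalClosure (↑(relS m F a1 a2 b1 b2 c1 c2 ζ) : Set (CQ m F))),
        (∀ a : ↥(alternatingGroup (Fin (m + 3))), θ a.1 = θ0 a) ∧ θ τ = s) :
    ∃ θ : Equiv.Perm (Fin (m + 3)) →*
        (CQ m F ⧸ Subgroup.normalClosure (↑(relS m F a1 a2 b1 b2 c1 c2 ζ) : Set (CQ m F))),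
      ∀ σ, θ σ = QuotientGroup.mk (hw F σ) := by
  classical
  set N := Subgroup.normalClosure (↑(relS m F a1 a2 b1 b2 c1 c2 ζ) : Set (CQ m F)) with hN
  have h01 : (0 : Fin (m + 3)) ≠ 1 := by
    intro h; have := congrArg Fin.val h; simp at this
  set τ : Equiv.Perm (Fin (m + 3)) := Equiv.swap 0 1 with hτdef
  have hτ : Equiv.Perm.sign τ = -1 := Equiv.Perm.sign_swap h01
  have hτ2 : τ * τ = 1 := Equiv.swap_mul_self 0 1
  let θ0 : ↥(alternatingGroup (Fin (m + 3))) →* (CQ m F ⧸ N) :=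
    (QuotientGroup.mk' N).comp Monoid.Coprod.inl
  let s : CQ m F ⧸ N := QuotientGroup.mk' N (jr (PM F (Equiv.swap 0 1)))
  have hs : s * s = 1 := by
    show QuotientGroup.mk' N _ * QuotientGroup.mk' N _ = 1
    rw [← map_mul]
    have : (jr (PM F (Equiv.swap 0 1)) : CQ m F) * jr (PM F (Equiv.swap 0 1)) = 1 := by
      unfold jr
      rw [← map_mul, ← PM_mul, Equiv.swap_mul_self, PM_one, map_one]
    rw [this, map_one]
  have hconj : ∀ x : Equiv.Perm (Fin (m + 3)), x ∈ alternatingGroup (Fin (m + 3)) →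
      τ * x * τ ∈ alternatingGroup (Fin (m + 3)) := by
    intro x hx
    rw [Equiv.Perm.mem_alternatingGroup] at hx ⊢
    rw [map_mul, map_mul, hx, hτ]
    simp
  have hgen : ∀ a, (a = a1 ∨ a = a2) → ∀ (h : a ∈ alternatingGroup (Fin (m + 3))),
      s * θ0 ⟨a, h⟩ * s⁻¹ = θ0 ⟨τ * a * τ, hconj a h⟩ := by
    intro a ha' h
    have h1 := rel_mem m F a1 a2 b1 b2 c1 c2 ζ a ha'
    have h2 : cjw (jr (PM F (Equiv.swap 0 1))) (aw F a) *
        (aw F (Equiv.swap 0 1 * a * Equiv.swap 0 1))⁻¹ ∈ N := Subgroup.subset_normalClosure h1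
    have h3 := (QuotientGroup.eq_one_iff _).mpr h2
    have h4 : (aw F a : CQ m F) = Monoid.Coprod.inl ⟨a, h⟩ := by
      unfold aw; rw [dif_pos h]
    have h5 : (aw F (Equiv.swap 0 1 * a * Equiv.swap 0 1) : CQ m F) =
        Monoid.Coprod.inl ⟨τ * a * τ, hconj a h⟩ := by
      unfold aw; rw [dif_pos (hconj a h)]
    rw [h4, h5] at h3
    have h6 : s * θ0 ⟨a, h⟩ * s⁻¹ * (θ0 ⟨τ * a * τ, hconj a h⟩)⁻¹ = 1 := h3
    exact mul_inv_eq_one.mp h6
  have hall : ∀ x ∈ Subgroup.closure ({a1, a2} : Set (Equiv.Perm (Fin (m + 3)))),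
      ∃ h : x ∈ alternatingGroup (Fin (m + 3)),
        s * θ0 ⟨x, h⟩ * s⁻¹ = θ0 ⟨τ * x * τ, hconj x h⟩ := by
    intro x hx
    induction hx using Subgroup.closure_induction with
    | mem x hx =>
      rcases hx with rfl | hx
      · exact ⟨ha1, hgen _ (Or.inl rfl) ha1⟩
      · rw [Set.mem_singleton_iff] at hx
        subst hx
        exact ⟨ha2, hgen _ (Or.inr rfl) ha2⟩
    | one =>
      refine ⟨Subgroup.one_mem _, ?_⟩
      have e1 : (⟨1, Subgroup.one_mem _⟩ : ↥(alternatingGroup (Fin (m + 3)))) = 1 := rfl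
      have e2 : (⟨τ * 1 * τ, hconj 1 (Subgroup.one_mem _)⟩ : ↥(alternatingGroup (Fin (m + 3)))) = 1 :=
        Subtype.ext (by simp [hτ2])
      rw [e1, e2, map_one, mul_one, mul_inv_cancel]
    | mul x y _ _ hx hy =>
      obtain ⟨hx1, hx2⟩ := hx
      obtain ⟨hy1, hy2⟩ := hy
      refine ⟨Subgroup.mul_mem _ hx1 hy1, ?_⟩
      have e1 : (⟨x * y, Subgroup.mul_mem _ hx1 hy1⟩ : ↥(alternatingGroup (Fin (m + 3)))) =
          ⟨x, hx1⟩ * ⟨y, hy1⟩ := rfl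
      have e2 : (⟨τ * (x * y) * τ, hconj _ (Subgroup.mul_mem _ hx1 hy1)⟩ :
          ↥(alternatingGroup (Fin (m + 3)))) = ⟨τ * x * τ, hconj x hx1⟩ * ⟨τ * y * τ, hconj y hy1⟩ := by
        apply Subtype.ext
        show τ * (x * y) * τ = τ * x * τ * (τ * y * τ)
        calc τ * (x * y) * τ = τ * x * 1 * y * τ := by group
          _ = τ * x * (τ * τ) * y * τ := by rw [hτ2]
          _ = _ := by group
      rw [e1, e2, map_mul, map_mul, ← hx2, ← hy2]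
      group
    | inv x _ hx =>
      obtain ⟨hx1, hx2⟩ := hx
      refine ⟨Subgroup.inv_mem _ hx1, ?_⟩
      have hτi : τ⁻¹ = τ := inv_eq_of_mul_eq_one_left hτ2
      have e1 : (⟨x⁻¹, Subgroup.inv_mem _ hx1⟩ : ↥(alternatingGroup (Fin (m + 3)))) =
          (⟨x, hx1⟩ : ↥(alternatingGroup (Fin (m + 3))))⁻¹ := rfl
      have e2 : (⟨τ * x⁻¹ * τ, hconj _ (Subgroup.inv_mem _ hx1)⟩ :
          ↥(alternatingGroup (Fin (m + 3)))) =
          (⟨τ * x * τ, hconj x hx1⟩ : ↥(alternatingGroup (Fin (m + 3))))⁻¹ := by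
        apply Subtype.ext
        show τ * x⁻¹ * τ = (τ * x * τ)⁻¹
        rw [_root_.mul_inv_rev, _root_.mul_inv_rev, hτi, mul_assoc]
      rw [e1, e2, map_inv, map_inv, ← hx2]
      group
  obtain ⟨θ, hθ1, hθ2⟩ := hhat τ hτ hτ2 θ0 s hs (by
    intro a ha'
    obtain ⟨h, h'⟩ := hall a.1 (ha a.2)
    exact h')
  refine ⟨θ, fun σ => ?_⟩
  by_cases hσ : σ ∈ alternatingGroup (Fin (m + 3))
  · have : (hw F σ : CQ m F) = Monoid.Coprod.inl ⟨σ, hσ⟩ := by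
      unfold hw aw; rw [if_pos hσ, dif_pos hσ]
    rw [this]
    exact hθ1 ⟨σ, hσ⟩
  · have hσ' : σ * τ ∈ alternatingGroup (Fin (m + 3)) := by
      rw [Equiv.Perm.mem_alternatingGroup] at hσ ⊢
      rw [map_mul, hτ]
      rcases Int.units_eq_one_or (Equiv.Perm.sign σ) with h | h
      · exact absurd h hσ
      · rw [h]; simp
    have : (hw F σ : CQ m F) = Monoid.Coprod.inl ⟨σ * τ, hσ'⟩ * jr (PM F (Equiv.swap 0 1)) := by
      unfold hw aw; rw [if_neg hσ, dif_pos hσ']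
    rw [this]
    have e : σ = (σ * τ) * τ := by rw [mul_assoc, hτ2, mul_one]
    conv_lhs => rw [e, map_mul, hθ2]
    rw [hθ1 ⟨σ * τ, hσ'⟩]
    rfl

end Cfsg.Agent.Lib.Helper28SpEhatq
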