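import Cfsg.Agent.Lib.Helper43SpDefs
import Cfsg.Agent.Lib.Helper65SpAPI

set_option autoImplicit false

/-! Project 243, pieces `m2wS`, `m2wL`, `m2wlong` (brute force in `Sp_4(F)`). -/

namespace Cfsg.Agent.Lib.Helper28SpM2w

open Matrix Cfsg.Agent.Lib.Helper43St Cfsg.Agent.Lib.Helper43Sp Cfsg.Agent.Lib.Helper65SpAPI

variable {F : Type*} [Field F]

/-- the matrix of `w_{e_0 e_1}(1)` -/
def WS (F : Type*) [Field F] : Matrix (I 2) (I 2) F :=
  Matrix.fromBlocks !![0, 1; -1, 0] 0 0 !![0, 1; -1, 0]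

theorem wS_val : ((wX (Sum.inl 0) (Sum.inl 1) 1 : Sp 2 F) : Matrix (I 2) (I 2) F) = WS F := by
  unfold wX
  rw [Submonoid.coe_mul, Submonoid.coe_mul,
    X_val _ _ (by decide), X_val _ _ (by decide)]
  ext i j
  rcases i with i | i <;> rcases j with j | j <;> fin_cases i <;> fin_cases j <;>
    simp [Xm, WS, ng, sg, Matrix.mul_apply, Fintype.sum_sum_type, Fin.sum_univ_two,
      Matrix.single_apply]

/-- the matrix of `w_{e_0 f_0}(1)` -/
def WL (F : Type*) [Field F] : Matrix (I 2) (I 2) F :=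
  Matrix.fromBlocks !![0, 0; 0, 1] !![1, 0; 0, 0] !![-1, 0; 0, 0] !![0, 0; 0, 1]

theorem wL_val : ((wX (Sum.inl 0) (Sum.inr 0) 1 : Sp 2 F) : Matrix (I 2) (I 2) F) = WL F := by
  unfold wX
  rw [Submonoid.coe_mul, Submonoid.coe_mul,
    X_val _ _ (by decide), X_val _ _ (by decide)]
  ext i j
  rcases i with i | i <;> rcases j with j | j <;> fin_cases i <;> fin_cases j <;>
    simp [Xm, WL, ng, Matrix.mul_apply, Fintype.sum_sum_type, Fin.sum_univ_two,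
      Matrix.single_apply]

theorem conj_of (W A B : Sp 2 F)
    (h : (W : Matrix (I 2) (I 2) F) * (A : Matrix (I 2) (I 2) F) = (B : Matrix (I 2) (I 2) F) * W) :
    W * A * W⁻¹ = B := by
  rw [mul_inv_eq_iff_eq_mul]
  exact Subtype.ext h

theorem conj_of' (W A B : Sp 2 F)
    (h : (A : Matrix (I 2) (I 2) F) * (W : Matrix (I 2) (I 2) F) = (W : Matrix (I 2) (I 2) F) * B) :
    W⁻¹ * A * W = B := by
  rw [mul_assoc, inv_mul_eq_iff_eq_mul]
  exact Subtype.ext h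

theorem swS : ∀ c : I 2, sw (Sum.inl 0) (Sum.inl 1) c = pmI (Equiv.swap 0 1) c := by decide

theorem swL : ∀ c : I 2, sw (Sum.inl 0) (Sum.inr 0) c = Equiv.swap (Sum.inl 0) (Sum.inr 0) c := by
  decide

set_option maxHeartbeats 4000000 in
theorem matS (c d : I 2) (hcd : c ≠ d) (t : F) :
    WS F * Xm c d t = Xm (pmI (Equiv.swap 0 1) c) (pmI (Equiv.swap 0 1) d)
      (if ab c = ab d then t else -t) * WS F ∧
    Xm c d t * WS F = WS F * Xm (pmI (Equiv.swap 0 1) c) (pmI (Equiv.swap 0 1) d)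
      (if ab c = ab d then t else -t) := by
  rcases c with c | c <;> rcases d with d | d <;> fin_cases c <;> fin_cases d <;>
  first
  | exact absurd rfl hcd
  | (constructor <;> ext i j <;>
      rcases i with i | i <;> rcases j with j | j <;> fin_cases i <;> fin_cases j <;>
      simp [Xm, WS, ng, sg, ab, pmI, Matrix.mul_apply, Fintype.sum_sum_type, Fin.sum_univ_two,
        Matrix.single_apply])

set_option maxHeartbeats 4000000 in
theorem matL (c d : I 2) (hcd : c ≠ d) (t : F) :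
    WL F * Xm c d t = Xm (Equiv.swap (Sum.inl 0) (Sum.inr 0) c) (Equiv.swap (Sum.inl 0) (Sum.inr 0) d)
      (if c = Sum.inl 0 ∨ d = Sum.inl 0 then -t else t) * WL F ∧
    Xm c d t * WL F = WL F * Xm (Equiv.swap (Sum.inl 0) (Sum.inr 0) c)
      (Equiv.swap (Sum.inl 0) (Sum.inr 0) d)
      (if c = Sum.inr 0 ∨ d = Sum.inr 0 then -t else t) := by
  rcases c with c | c <;> rcases d with d | d <;> fin_cases c <;> fin_cases d <;>
  first
  | exact absurd rfl hcd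
  | (constructor <;> ext i j <;>
      rcases i with i | i <;> rcases j with j | j <;> fin_cases i <;> fin_cases j <;>
      simp [Xm, WL, ng, sg, Equiv.swap_apply_def, Matrix.mul_apply, Fintype.sum_sum_type,
        Fin.sum_univ_two, Matrix.single_apply])

theorem pmI_ne {c d : I 2} (hcd : c ≠ d) :
    pmI (Equiv.swap 0 1) c ≠ pmI (Equiv.swap 0 1) d := by
  rw [← swS, ← swS]
  exact (sw _ _).injective.ne hcd

-- piece `m2wS`
theorem wX_short (c d : I 2) (hcd : c ≠ d) (t : F) :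
    (∃ t', (wX (Sum.inl 0) (Sum.inl 1) 1 : Sp 2 F) * X c d t * (wX (Sum.inl 0) (Sum.inl 1) 1)⁻¹ =
      X (sw (Sum.inl 0) (Sum.inl 1) c) (sw (Sum.inl 0) (Sum.inl 1) d) t') ∧
    (∃ t', (wX (Sum.inl 0) (Sum.inl 1) 1 : Sp 2 F)⁻¹ * X c d t * wX (Sum.inl 0) (Sum.inl 1) 1 =
      X (sw (Sum.inl 0) (Sum.inl 1) c) (sw (Sum.inl 0) (Sum.inl 1) d) t') := by
  rw [swS, swS]
  refine ⟨⟨if ab c = ab d then t else -t, conj_of _ _ _ ?_⟩,
    ⟨if ab c = ab d then t else -t, conj_of' _ _ _ ?_⟩⟩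
  · rw [wS_val, X_val _ _ hcd, X_val _ _ (pmI_ne hcd)]
    exact (matS c d hcd t).1
  · rw [wS_val, X_val _ _ hcd, X_val _ _ (pmI_ne hcd)]
    exact (matS c d hcd t).2

-- piece `m2wL`
theorem wX_long (c d : I 2) (hcd : c ≠ d) (t : F) :
    (∃ t', (wX (Sum.inl 0) (Sum.inr 0) 1 : Sp 2 F) * X c d t * (wX (Sum.inl 0) (Sum.inr 0) 1)⁻¹ =
      X (sw (Sum.inl 0) (Sum.inr 0) c) (sw (Sum.inl 0) (Sum.inr 0) d) t') ∧
    (∃ t', (wX (Sum.inl 0) (Sum.inr 0) 1 : Sp 2 F)⁻¹ * X c d t * wX (Sum.inl 0) (Sum.inr 0) 1 =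
      X (sw (Sum.inl 0) (Sum.inr 0) c) (sw (Sum.inl 0) (Sum.inr 0) d) t') := by
  rw [swL, swL]
  have hne : Equiv.swap (Sum.inl 0 : I 2) (Sum.inr 0) c ≠ Equiv.swap (Sum.inl 0 : I 2) (Sum.inr 0) d :=
    (Equiv.swap _ _).injective.ne hcd
  refine ⟨⟨if c = Sum.inl 0 ∨ d = Sum.inl 0 then -t else t, conj_of _ _ _ ?_⟩,
    ⟨if c = Sum.inr 0 ∨ d = Sum.inr 0 then -t else t, conj_of' _ _ _ ?_⟩⟩
  · rw [wL_val, X_val _ _ hcd, X_val _ _ hne]
    exact (matL c d hcd t).1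
  · rw [wL_val, X_val _ _ hcd, X_val _ _ hne]
    exact (matL c d hcd t).2

theorem ng_ne (a : I 2) : a ≠ ng a := by
  rcases a with a | a <;> simp [ng]

theorem pmI_ng (a : I 2) : pmI (Equiv.swap 0 1) (ng a) = ng (pmI (Equiv.swap 0 1) a) := by
  rcases a with a | a <;> simp [ng, pmI]

theorem ab_ng (a : I 2) : ab a = ab (ng a) := by
  rcases a with a | a <;> simp [ng, ab]

-- piece `m2wlong`
theorem wX_short_long (a : I 2) (t : F) :
    (wX (Sum.inl 0) (Sum.inl 1) 1 : Sp 2 F) * X a (ng a) t * (wX (Sum.inl 0) (Sum.inl 1) 1)⁻¹ =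
      X (pmI (Equiv.swap 0 1) a) (ng (pmI (Equiv.swap 0 1) a)) t ∧
    (wX (Sum.inl 0) (Sum.inl 1) 1 : Sp 2 F)⁻¹ * X a (ng a) t * wX (Sum.inl 0) (Sum.inl 1) 1 =
      X (pmI (Equiv.swap 0 1) a) (ng (pmI (Equiv.swap 0 1) a)) t := by
  have h := matS a (ng a) (ng_ne a) t
  rw [if_pos (ab_ng a), pmI_ng] at h
  refine ⟨conj_of _ _ _ ?_, conj_of' _ _ _ ?_⟩
  · rw [wS_val, X_val _ _ (ng_ne a), X_val _ _ (ng_ne _)]
    exact h.1
  · rw [wS_val, X_val _ _ (ng_ne a), X_val _ _ (ng_ne _)]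
    exact h.2

end Cfsg.Agent.Lib.Helper28SpM2w
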