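import Mathlib
import Cfsg.Agent.Lib.Helper71ZaDefs

set_option autoImplicit false
set_option linter.unusedSectionVars false

/-! Zassenhaus project: double covers of `A₅` with a unique involution. -/

namespace Cfsg.Agent.Lib.Helper28ZaBase

open Subgroup

variable {D : Type*} [Group D] [Finite D]
  (hinv : ∀ a b : D, orderOf a = 2 → orderOf b = 2 → a = b)
  (f : D →* alternatingGroup (Fin 5)) (hf : Function.Surjective f) (hk : Nat.card f.ker = 2)

include hk in
theorem orderOf_of_mem_ker {k : D} (hk1 : k ∈ f.ker) (hne : k ≠ 1) : orderOf k = 2 := by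
  have h1 : orderOf (⟨k, hk1⟩ : f.ker) ∣ 2 := hk ▸ orderOf_dvd_natCard _
  have h2 : orderOf k ∣ 2 := by rwa [Subgroup.orderOf_mk] at h1
  rcases (Nat.dvd_prime Nat.prime_two).mp h2 with h | h
  · exact absurd (orderOf_eq_one_iff.mp h) hne
  · exact h

theorem orderOf_conj' (g y : D) : orderOf (g * y * g⁻¹) = orderOf y := by
  have := (MulAut.conj g).toMonoidHom
  exact orderOf_injective (MulAut.conj g).toMonoidHom (MulAut.conj g).injective y

include hinv hk in
theorem ker_le_center : f.ker ≤ center D := by
  intro k hk1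
  rw [mem_center_iff]
  intro g
  by_cases hne : k = 1
  · rw [hne]; simp
  · have h2 := orderOf_of_mem_ker f hk hk1 hne
    have h3 : g * k * g⁻¹ = k := hinv _ _ (by rw [orderOf_conj', h2]) h2
    calc g * k = (g * k * g⁻¹) * g := by group
      _ = k * g := by rw [h3]

include hinv hf hk in
theorem center_eq_ker : center D = f.ker := by
  apply le_antisymm _ (ker_le_center hinv f hk)
  intro c hc
  rw [MonoidHom.mem_ker]
  have h1 : f c ∈ center (alternatingGroup (Fin 5)) := by
    rw [mem_center_iff] at hc ⊢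
    intro g
    obtain ⟨g', rfl⟩ := hf g
    rw [← map_mul, ← map_mul, hc g']
  rw [alternatingGroup.center_eq_bot (by simp), mem_bot] at h1
  exact h1

/-- an involution of `A₅` -/
def inv5 : alternatingGroup (Fin 5) :=
  ⟨Equiv.swap 0 1 * Equiv.swap 2 3, by rw [Equiv.Perm.mem_alternatingGroup]; decide⟩

theorem inv5_ne_one : inv5 ≠ 1 := by decide

theorem inv5_mul_self : inv5 * inv5 = 1 := by decide

include hinv hk in
theorem eq_top_of_map_eq_top {K₀ : Subgroup D} (h : K₀.map f = ⊤) : K₀ = ⊤ := by
  obtain ⟨k, hkK, hka⟩ : inv5 ∈ K₀.map f := by rw [h]; trivial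
  have hk1 : k ≠ 1 := by
    rintro rfl
    exact inv5_ne_one (by rw [← hka, map_one])
  have hkk : k * k ∈ f.ker := by
    rw [MonoidHom.mem_ker, map_mul, hka, inv5_mul_self]
  have hnotker : k ∉ f.ker := by
    intro h1
    exact inv5_ne_one (by rw [← hka]; exact h1)
  have hne : k * k ≠ 1 := by
    intro h1
    have h2 : orderOf k = 2 := orderOf_eq_prime (by rw [pow_two, h1]) hk1
    -- the kernel contains an involution
    have : Nontrivial f.ker := by
      rw [← Finite.one_lt_card_iff_nontrivial, hk]; norm_num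
    obtain ⟨z, hz⟩ := exists_ne (1 : f.ker)
    have hz2 : orderOf (z : D) = 2 :=
      orderOf_of_mem_ker f hk z.2 (fun h => hz (Subtype.ext h))
    exact hnotker (by rw [hinv k z h2 hz2]; exact z.2)
  have h2 := orderOf_of_mem_ker f hk hkk hne
  have hker : f.ker ≤ K₀ := by
    intro c hc
    by_cases hc1 : c = 1
    · rw [hc1]; exact one_mem _
    · rw [hinv c (k * k) (orderOf_of_mem_ker f hk hc hc1) h2]
      exact mul_mem hkK hkK
  rw [eq_top_iff]
  intro d _
  obtain ⟨k', hk', he⟩ : f d ∈ K₀.map f := by rw [h]; trivial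
  have h3 : k'⁻¹ * d ∈ f.ker := by
    rw [MonoidHom.mem_ker, map_mul, map_inv, he, inv_mul_cancel]
  have : d = k' * (k'⁻¹ * d) := by group
  rw [this]
  exact mul_mem hk' (hker h3)

include hinv hf hk in
theorem commutator_eq_top : commutator D = ⊤ := by
  apply eq_top_of_map_eq_top hinv f hk
  rw [commutator_def, map_commutator, ← MonoidHom.range_eq_map, MonoidHom.range_eq_top.mpr hf,
    ← commutator_def]
  exact commutator_alternatingGroup_eq_top (by simp)

end Cfsg.Agent.Lib.Helper28ZaBase
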