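import Mathlib
import Cfsg.Agent.Lib.Helper71ZaDefs
import Cfsg.Agent.Lib.Helper28ZaBase
import Cfsg.Agent.Lib.Helper28Schreier
import Cfsg.Agent.S2119

set_option autoImplicit false
set_option linter.unusedSectionVars false

namespace Cfsg.Agent.Lib.Helper28ZaG7a

open Cfsg.Agent.Lib.Helper71ZaDefs Subgroup Cfsg.Agent.Lib.Helper28ZaBase
open Cfsg.Agent.Lib.Helper27Basic (comm_eq_bot_of_perfect comm_eq_bot_symm)
open scoped commutatorElement

variable {H : Type*} [Group H] [Finite H]

theorem index_sup_centralizer (hZ : ZG H) (L : Subgroup H) [L.Normal]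
    (f : L →* alternatingGroup (Fin 5)) (hf : Function.Surjective f) (hk : Nat.card f.ker = 2) :
    (L ⊔ centralizer (L : Set H)).index = 1 ∨ (L ⊔ centralizer (L : Set H)).index = 2 := by
  have hinv : ∀ a b : L, orderOf a = 2 → orderOf b = 2 → a = b := fun a b ha hb =>
    Subtype.ext (hZ.invol a b (by rwa [Subgroup.orderOf_coe]) (by rwa [Subgroup.orderOf_coe]))
  have hcen : center L = f.ker := center_eq_ker hinv f hf hk
  have hperf : ⁅L, L⁆ = L :=
    Subgroup.isPerfect_iff.mp ⟨commutator_eq_top hinv f hf hk⟩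
  let e' : L ⧸ center L ≃* alternatingGroup (Fin 5) :=
    (QuotientGroup.quotientMulEquivOfEq hcen).trans
      (QuotientGroup.quotientKerEquivOfSurjective f hf)
  have he' : ∀ l : L, e' (QuotientGroup.mk l) = f l := fun l => rfl
  let Θ : H →* MulAut (alternatingGroup (Fin 5)) :=
    (MulAut.congr e').toMonoidHom.comp
      ((Helper28Schreier.indAut L).comp (MulAut.conjNormal : H →* MulAut L))
  have hΘ : ∀ (h : H) (m : L), Θ h (f m) = f (MulAut.conjNormal h m) := by
    intro h m
    show e' (Helper28Schreier.indAut L (MulAut.conjNormal h) (e'.symm (f m))) = _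
    rw [← he' m, e'.symm_apply_apply, Helper28Schreier.indAut_mk, he']
  let E : Equiv.Perm (Fin 5) ≃* MulAut (alternatingGroup (Fin 5)) :=
    MulEquiv.ofBijective MulAut.conjNormal (Cfsg.Agent.S2119.result 5 (by norm_num) (by norm_num))
  let θ : H →* Equiv.Perm (Fin 5) := E.symm.toMonoidHom.comp Θ
  have hEθ : ∀ h : H, E (θ h) = Θ h := fun h => E.apply_symm_apply _
  have hθL : ∀ l : L, θ (l : H) = (f l : Equiv.Perm (Fin 5)) := by
    intro l
    apply E.injective
    rw [hEθ]
    ext1 a
    obtain ⟨m, rfl⟩ := hf a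
    rw [hΘ]
    have h1 : (MulAut.conjNormal (l : H) m : L) = l * m * l⁻¹ := by
      apply Subtype.ext
      simp [MulAut.conjNormal_apply]
    rw [h1, map_mul, map_mul, map_inv]
    apply Subtype.ext
    show _ = ((MulAut.conjNormal ((f l : Equiv.Perm (Fin 5))) (f m) : alternatingGroup (Fin 5)) :
      Equiv.Perm (Fin 5))
    rw [MulAut.conjNormal_apply]
    rfl
  have hker : Θ.ker ≤ centralizer (L : Set H) := by
    have h1 : ⁅Θ.ker, L⁆ ≤ centralizer (L : Set H) := by
      rw [commutator_le]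
      intro t ht m hm
      have h2 : f (MulAut.conjNormal t ⟨m, hm⟩) = f ⟨m, hm⟩ := by
        rw [← hΘ, MonoidHom.mem_ker.mp ht]; rfl
      have h3 : (MulAut.conjNormal t ⟨m, hm⟩ : L) * (⟨m, hm⟩ : L)⁻¹ ∈ center L := by
        rw [hcen, MonoidHom.mem_ker, map_mul, map_inv, h2, mul_inv_cancel]
      rw [mem_centralizer_iff]
      intro l hl
      have h4 := congrArg Subtype.val (mem_center_iff.mp h3 ⟨l, hl⟩)
      simpa [MulAut.conjNormal_apply, commutatorElement_def] using h4
    have h2 : ⁅⁅Θ.ker, L⁆, L⁆ = ⊥ := commutator_eq_bot_iff_le_centralizer.mpr h1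
    exact commutator_eq_bot_iff_le_centralizer.mp
      (comm_eq_bot_symm (comm_eq_bot_of_perfect hperf h2))
  have hle : (alternatingGroup (Fin 5)).comap θ ≤ L ⊔ centralizer (L : Set H) := by
    intro h hh
    obtain ⟨l, hl⟩ := hf ⟨θ h, hh⟩
    have h1 : θ (l : H) = θ h := by rw [hθL, hl]
    have h2 : (l : H)⁻¹ * h ∈ Θ.ker := by
      rw [MonoidHom.mem_ker, ← hEθ, map_mul, map_inv, h1, inv_mul_cancel, map_one]
    have : h = (l : H) * ((l : H)⁻¹ * h) := by group
    rw [this]
    exact mul_mem (mem_sup_left l.2) (mem_sup_right (hker h2))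
  have h1 : (L ⊔ centralizer (L : Set H)).index ∣ 2 := by
    refine (index_dvd_of_le hle).trans ?_
    rw [index_comap, ← alternatingGroup.index_eq_two (α := Fin 5)]
    exact relIndex_dvd_index_of_normal _ _
  exact (Nat.dvd_prime Nat.prime_two).mp h1

end Cfsg.Agent.Lib.Helper28ZaG7a
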