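import Mathlib
import Cfsg.Agent.Lib.Helper71ZaDefs
import Cfsg.Agent.Lib.Helper28ZaBase
import Cfsg.Agent.Lib.Helper75ZaSYL
import Cfsg.Agent.Lib.Helper1UniqInv

set_option autoImplicit false
set_option linter.unusedSectionVars false

namespace Cfsg.Agent.Lib.Helper28ZaG7b

open Cfsg.Agent.Lib.Helper71ZaDefs Subgroup Cfsg.Agent.Lib.Helper28ZaBase

theorem mem_zpowers_two {C : Type*} [Group C] {z x : C} (hz : z * z = 1) :
    x ∈ zpowers z ↔ x = 1 ∨ x = z := by
  constructor
  · rintro ⟨k, rfl⟩
    rcases Int.even_or_odd' k with ⟨m, rfl | rfl⟩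
    · left
      show z ^ (2 * m) = 1
      rw [zpow_mul, zpow_two, hz, one_zpow]
    · right
      show z ^ (2 * m + 1) = z
      rw [zpow_add, zpow_mul, zpow_two, hz, one_zpow, one_mul, zpow_one]
  · rintro (rfl | rfl)
    · exact one_mem _
    · exact mem_zpowers _

theorem exists_odd_part {C : Type*} [Group C] [Finite C] (z : C) (hzc : z ∈ center C)
    (hz2 : orderOf z = 2) (h2 : ∀ c : C, c * c = 1 → c = 1 ∨ c = z) (h4 : ∀ c : C, c * c ≠ z) :
    ∃ K : Subgroup C, (∀ c : C, c ∈ K ↔ Odd (orderOf c)) ∧ Odd (Nat.card K) ∧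
      ∀ c : C, c ∈ K ∨ z * c ∈ K := by
  have hzz : z * z = 1 := by rw [← pow_two, ← hz2, pow_orderOf_eq_one]
  have hz1 : z ≠ 1 := by
    rintro rfl
    simp at hz2
  have hN : (zpowers z).Normal := by
    constructor
    intro n hn g
    have h1 : n ∈ center C := (zpowers_le.mpr hzc) hn
    have h3 : g * n * g⁻¹ = n := by
      rw [mem_center_iff.mp h1 g]; group
    rwa [h3]
  have hcard : Nat.card (zpowers z) = 2 := by rw [Nat.card_zpowers, hz2]
  have hodd : Odd (zpowers z).index := by
    by_contra hcon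
    rw [Nat.not_odd_iff_even, even_iff_two_dvd] at hcon
    have : Fact (Nat.Prime 2) := ⟨Nat.prime_two⟩
    obtain ⟨x, hx⟩ := exists_prime_orderOf_dvd_card' (G := C ⧸ zpowers z) 2 hcon
    obtain ⟨c, rfl⟩ := QuotientGroup.mk_surjective x
    have h1 : c * c ∈ zpowers z := by
      rw [← QuotientGroup.eq_one_iff, QuotientGroup.mk_mul, ← pow_two, ← hx, pow_orderOf_eq_one]
    have h3 : c ∉ zpowers z := by
      intro h
      rw [← QuotientGroup.eq_one_iff] at h
      rw [h] at hx
      simp at hx
    rcases (mem_zpowers_two hzz).mp h1 with h | h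
    · exact h3 ((mem_zpowers_two hzz).mpr (h2 c h))
    · exact h4 c h
  obtain ⟨K, hK⟩ := exists_right_complement'_of_coprime (N := zpowers z) (by
    rw [hcard]; exact (Nat.coprime_two_left).mpr hodd)
  have hKcard : Odd (Nat.card K) := by rw [← hK.symm.index_eq_card]; exact hodd
  have hdec : ∀ c : C, c ∈ K ∨ z * c ∈ K := by
    intro c
    obtain ⟨⟨n, k⟩, hnk, -⟩ := (isComplement_iff_existsUnique.mp hK) c
    simp only at hnk
    rcases (mem_zpowers_two hzz).mp n.2 with h | h
    · left
      rw [← hnk, h, one_mul]; exact k.2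
    · right
      rw [← hnk, h, ← mul_assoc, hzz, one_mul]; exact k.2
  have hzK : z ∉ K := by
    intro h
    have h1 : z ∈ zpowers z ⊓ K := ⟨mem_zpowers z, h⟩
    rw [hK.disjoint.eq_bot, mem_bot] at h1
    exact hz1 h1
  refine ⟨K, ?_, hKcard, hdec⟩
  intro c
  constructor
  · intro hc
    exact Odd.of_dvd_nat hKcard (Subgroup.orderOf_dvd_natCard K hc)
  · intro hc
    rcases hdec c with h | h
    · exact h
    · exfalso
      obtain ⟨m, hm⟩ := hc
      have hcomm : Commute z c := (mem_center_iff.mp hzc c).symm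
      have h1 : (z * c) ^ orderOf c = z := by
        rw [hcomm.mul_pow, pow_orderOf_eq_one, mul_one, hm, pow_succ, pow_mul, pow_two, hzz,
          one_pow, one_mul]
      exact hzK (h1 ▸ pow_mem h _)

variable {H : Type*} [Group H] [Finite H]

theorem centralizer_structure (hZ : ZG H) (L : Subgroup H) [L.Normal]
    (f : L →* alternatingGroup (Fin 5)) (hf : Function.Surjective f) (hk : Nat.card f.ker = 2) :
    ∃ M : Subgroup H, M.Normal ∧ M ≤ centralizer (L : Set H) ∧ L ⊓ M = ⊥ ∧
      L ⊔ M = L ⊔ centralizer (L : Set H) ∧ (Nat.card M).Coprime 30 ∧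
      ∀ (q : ℕ) [Fact q.Prime] (P : Sylow q M), IsCyclic P := by
  have hinv : ∀ a b : L, orderOf a = 2 → orderOf b = 2 → a = b := fun a b ha hb =>
    Subtype.ext (hZ.invol a b (by rwa [Subgroup.orderOf_coe]) (by rwa [Subgroup.orderOf_coe]))
  have hcen : center L = f.ker := center_eq_ker hinv f hf hk
  have : Nontrivial f.ker := by
    rw [← Finite.one_lt_card_iff_nontrivial, hk]; norm_num
  obtain ⟨z₀, hz₀⟩ := exists_ne (1 : f.ker)
  have hz₀2 : orderOf (z₀ : L) = 2 :=
    orderOf_of_mem_ker f hk z₀.2 (fun h => hz₀ (Subtype.ext h))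
  obtain ⟨z, hz⟩ : ∃ z : H, z = ((z₀ : L) : H) := ⟨_, rfl⟩
  have hz2 : orderOf z = 2 := by rw [hz, Subgroup.orderOf_coe]; exact hz₀2
  have hzz : z * z = 1 := by rw [← pow_two, ← hz2, pow_orderOf_eq_one]
  have hzL : z ∈ L := hz ▸ (z₀ : L).2
  have hLC : ∀ (x : H) (hx : x ∈ L), x ∈ centralizer (L : Set H) → (⟨x, hx⟩ : L) ∈ f.ker := by
    intro x hx hxc
    rw [← hcen, mem_center_iff]
    intro g
    apply Subtype.ext
    exact (mem_centralizer_iff.mp hxc g g.2)
  have hzC : z ∈ centralizer (L : Set H) := by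
    rw [mem_centralizer_iff]
    intro g hg
    have h1 : (z₀ : L) ∈ center L := by rw [hcen]; exact z₀.2
    rw [hz]
    exact congrArg Subtype.val (mem_center_iff.mp h1 ⟨g, hg⟩)
  have hsq : ∀ x : H, x * x = 1 → x = 1 ∨ x = z := by
    intro x hx
    by_cases h1 : x = 1
    · exact Or.inl h1
    · exact Or.inr (hZ.invol _ _ (orderOf_eq_prime (by rw [pow_two, hx]) h1) hz2)
  obtain ⟨i, hi⟩ := hf inv5
  have hinotker : i ∉ f.ker := by
    intro h
    exact inv5_ne_one (by rw [← hi]; exact h)
  have hii : (i : H) * i = z := by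
    have h1 : i * i ∈ f.ker := by
      rw [MonoidHom.mem_ker, map_mul, hi, inv5_mul_self]
    have h3 : i * i ≠ 1 := by
      intro h
      have h4 : (i : H) * i = 1 := congrArg Subtype.val h
      rcases hsq _ h4 with h5 | h5
      · apply hinotker
        have : i = 1 := Subtype.ext h5
        rw [this]; exact one_mem _
      · apply hinotker
        have : i = (z₀ : L) := Subtype.ext (h5.trans hz)
        rw [this]; exact z₀.2
    have h4 := hinv _ _ (orderOf_of_mem_ker f hk h1 h3) hz₀2
    rw [hz, ← h4]; rfl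
  have hker2 : ∀ x : L, x ∈ f.ker → (x : H) * x = 1 := by
    intro x hx
    have h1 : (⟨x, hx⟩ : f.ker) ^ 2 = 1 := hk ▸ pow_card_eq_one'
    have h3 := congrArg (fun y : f.ker => ((y : L) : H)) h1
    simpa [pow_two] using h3
  have hz1 : z ≠ 1 := by
    rintro rfl
    simp at hz2
  have h4 : ∀ c ∈ centralizer (L : Set H), c * c ≠ z := by
    intro c hc hcc
    have hci : (i : H) * c = c * i := mem_centralizer_iff.mp hc i i.2
    have h1 : (c * i) * (c * i) = 1 := by
      calc (c * i) * (c * i) = c * (i * c) * i := by group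
        _ = (c * c) * ((i : H) * i) := by rw [hci]; group
        _ = 1 := by rw [hcc, hii, hzz]
    have hcL : c ∈ L := by
      rcases hsq _ h1 with h | h
      · have : c = (i : H)⁻¹ := eq_inv_of_mul_eq_one_left h
        rw [this]; exact inv_mem i.2
      · have : c = z * (i : H)⁻¹ := by rw [← h]; group
        rw [this]; exact mul_mem hzL (inv_mem i.2)
    have h5 := hker2 ⟨c, hcL⟩ (hLC c hcL hc)
    exact hz1 (by rw [← hcc]; exact h5)
  obtain ⟨K, hKmem, hKodd, hKdec⟩ := exists_odd_part
    (C := centralizer (L : Set H)) ⟨z, hzC⟩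
    (by
      rw [mem_center_iff]
      intro g
      apply Subtype.ext
      exact (mem_centralizer_iff.mp g.2 z hzL).symm)
    (by rw [Subgroup.orderOf_mk]; exact hz2)
    (by
      intro c hc
      rcases hsq c (congrArg Subtype.val hc) with h | h
      · exact Or.inl (Subtype.ext h)
      · exact Or.inr (Subtype.ext h))
    (by
      intro c hc
      exact h4 c c.2 (congrArg Subtype.val hc))
  have hMmem : ∀ x : H, x ∈ K.map (centralizer (L : Set H)).subtype ↔
      x ∈ centralizer (L : Set H) ∧ Odd (orderOf x) := by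
    intro x
    constructor
    · rintro ⟨c, hc, rfl⟩
      refine ⟨c.2, ?_⟩
      have := (hKmem c).mp hc
      rwa [← Subgroup.orderOf_coe] at this
    · rintro ⟨hx, hodd⟩
      refine ⟨⟨x, hx⟩, (hKmem _).mpr ?_, rfl⟩
      rwa [Subgroup.orderOf_mk]
  have hMcard : Nat.card (K.map (centralizer (L : Set H)).subtype) = Nat.card K :=
    Subgroup.card_map_of_injective (subtype_injective _)
  have hLM : L ⊓ K.map (centralizer (L : Set H)).subtype = ⊥ := by
    rw [eq_bot_iff]
    rintro x ⟨hxL, hxM⟩
    obtain ⟨hxC, m, hm⟩ := (hMmem x).mp hxM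
    have h1 := hker2 ⟨x, hxL⟩ (hLC x hxL hxC)
    have h3 : x ^ orderOf x = x := by
      rw [hm, pow_succ, pow_mul, pow_two]
      simp only at h1
      rw [h1, one_pow, one_mul]
    rw [pow_orderOf_eq_one] at h3
    rw [mem_bot, ← h3]
  have hLcard : Nat.card L = 120 := by
    have h1 := Subgroup.card_eq_card_quotient_mul_card_subgroup f.ker
    rw [Nat.card_congr (QuotientGroup.quotientKerEquivOfSurjective f hf).toEquiv, hk,
      nat_card_alternatingGroup] at h1
    rw [h1]
    simp [Nat.factorial]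
  have hq : ∀ q : ℕ, q.Prime → q ∣ 120 → ¬ q ∣ Nat.card (K.map (centralizer (L : Set H)).subtype) := by
    intro q hqp hq120 hqM
    have : Fact q.Prime := ⟨hqp⟩
    obtain ⟨m, hm⟩ := exists_prime_orderOf_dvd_card' (G := K.map (centralizer (L : Set H)).subtype) q hqM
    obtain ⟨l, hl⟩ := exists_prime_orderOf_dvd_card' (G := L) q (hLcard ▸ hq120)
    have hmC : (m : H) ∈ centralizer (L : Set H) := ((hMmem m).mp m.2).1
    have hcomm : (l : H) * m = m * l := mem_centralizer_iff.mp hmC l l.2
    have hcyc : IsCyclic (closure {(l : H), (m : H)}) := by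
      apply hZ.cyc
      have hcl : closure {(l : H), (m : H)} ≤ centralizer ({(l : H), (m : H)} : Set H) := by
        rw [closure_le]
        intro x hx
        rw [SetLike.mem_coe, mem_centralizer_iff]
        intro y hy
        rcases hx with rfl | rfl <;> rcases hy with rfl | rfl
        · rfl
        · exact hcomm.symm
        · exact hcomm
        · rfl
      have hcl2 : closure {(l : H), (m : H)} ≤ centralizer (closure {(l : H), (m : H)} : Set H) := by
        rw [centralizer_closure]
        exact hcl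
      intro a ha b hb
      exact (mem_centralizer_iff.mp (hcl2 ha) b hb).symm
    have hlA : (l : H) ∈ closure {(l : H), (m : H)} := subset_closure (by simp)
    have hmA : (m : H) ∈ closure {(l : H), (m : H)} := subset_closure (by simp)
    have h1 : (⟨m, hmA⟩ : closure {(l : H), (m : H)}) ∈ zpowers (⟨l, hlA⟩ : closure {(l : H), (m : H)}) := by
      apply Helper1UniqInv.mem_of_pow_card_eq_one
      rw [Nat.card_zpowers, Subgroup.orderOf_mk, Subgroup.orderOf_coe, hl]
      apply Subtype.ext
      show (m : H) ^ q = 1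
      rw [← hm, ← Subgroup.orderOf_coe, pow_orderOf_eq_one]
    obtain ⟨k, hk'⟩ := h1
    have h3 : (m : H) = (l : H) ^ k := by
      have := congrArg Subtype.val hk'
      simpa using this.symm
    have h5 : (m : H) ∈ L ⊓ K.map (centralizer (L : Set H)).subtype :=
      ⟨h3 ▸ zpow_mem l.2 k, m.2⟩
    rw [hLM, mem_bot] at h5
    have h6 : m = 1 := Subtype.ext h5
    rw [h6, orderOf_one] at hm
    exact hqp.one_lt.ne hm
  refine ⟨K.map (centralizer (L : Set H)).subtype, ?_, ?_, hLM, ?_, ?_, ?_⟩
  · constructor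
    intro n hn g
    obtain ⟨h1, h3⟩ := (hMmem n).mp hn
    refine (hMmem _).mpr ⟨(inferInstance : (centralizer (L : Set H)).Normal).conj_mem n h1 g, ?_⟩
    rwa [orderOf_conj']
  · intro x hx
    exact ((hMmem x).mp hx).1
  · apply le_antisymm
    · exact sup_le_sup_left (fun x hx => ((hMmem x).mp hx).1) _
    · refine sup_le le_sup_left ?_
      intro c hc
      rcases hKdec ⟨c, hc⟩ with h | h
      · exact mem_sup_right ⟨_, h, rfl⟩
      · have h1 : z * c ∈ K.map (centralizer (L : Set H)).subtype := ⟨_, h, rfl⟩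
        have : c = z * (z * c) := by rw [← mul_assoc, hzz, one_mul]
        rw [this]
        exact mul_mem (mem_sup_left hzL) (mem_sup_right h1)
  · have h30 : (30 : ℕ) = 2 * 3 * 5 := by norm_num
    rw [h30]
    refine Nat.Coprime.mul_right (Nat.Coprime.mul_right ?_ ?_) ?_
    · exact ((Nat.Prime.coprime_iff_not_dvd Nat.prime_two).mpr (hq 2 Nat.prime_two (by norm_num))).symm
    · exact ((Nat.Prime.coprime_iff_not_dvd Nat.prime_three).mpr (hq 3 Nat.prime_three (by norm_num))).symm
    · exact ((Nat.Prime.coprime_iff_not_dvd Nat.prime_five).mpr (hq 5 Nat.prime_five (by norm_num))).symm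
  · intro q _ P
    by_cases hq2 : q = 2
    · subst hq2
      obtain ⟨n, hn⟩ := P.isPGroup'.exists_card_eq
      have h1 : Nat.card P ∣ Nat.card (K.map (centralizer (L : Set H)).subtype) :=
        Subgroup.card_subgroup_dvd_card _
      have hn0 : n = 0 := by
        by_contra h0
        apply hq 2 Nat.prime_two (by norm_num)
        refine dvd_trans ?_ h1
        rw [hn]
        exact dvd_pow_self 2 h0
      rw [hn0, pow_zero] at hn
      have : Subsingleton P := (Nat.card_eq_one_iff_unique.mp hn).1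
      exact isCyclic_of_subsingleton
    · exact Helper75ZaSYL.sylow_cyclic
        (fun A hA => Helper75ZaSYL.abelian_cyclic_sub hZ.cyc _ A
          ⟨⟨fun a b => Subtype.ext (hA a a.2 b b.2)⟩⟩) q hq2 P

end Cfsg.Agent.Lib.Helper28ZaG7b
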