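import Mathlib
import Cfsg.Agent.Lib.Helper61HigDefs
import Cfsg.Prelude.Def_LieRecognition

set_option autoImplicit false
set_option linter.unusedVariables false

/-! PROJECT 61, piece `ofsuz`. -/

namespace Cfsg.Agent.Lib.Helper29HigOfsuz

open Subgroup
open Cfsg.Agent.Lib.Helper61HigDefs

universe u v

variable {P : Type u} {A : Type v} [Group P] [Group A] {f : A →* MulAut P}

/-- piece `ofsuz` -/
theorem hs_of_suzuki {P : Type u} [Group P] (hP : Cfsg.IsSuzukiTwoGroup P) :
    ∃ K : Subgroup (MulAut P), HS K.subtype := by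
  obtain ⟨hfin, h2, -, hmany, K, hK, hreg⟩ := hP
  exact ⟨K, hfin, h2, hK, hreg, hmany⟩

end Cfsg.Agent.Lib.Helper29HigOfsuz
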