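import Mathlib
import Cfsg.Agent.Lib.Helper20SNDefs

set_option autoImplicit false

namespace Cfsg.Agent.Lib.Helper29SNAbn

open Cfsg.Agent.Lib.Helper20SNDefs
open scoped commutatorElement

/-- piece `abn` -/
theorem exists_abelian_normal {G : Type*} [Group G] [Finite G] (H L : Subgroup G)
    (hn : ∀ l ∈ L, ∀ h ∈ H, l * h * l⁻¹ ∈ H) (hs : Group.IsSolvable H) (hne : H ≠ ⊥) :
    ∃ F0 : Subgroup G, F0 ≤ H ∧ F0 ≠ ⊥ ∧ Ab F0 ∧ ∀ l ∈ L, ∀ f ∈ F0, l * f * l⁻¹ ∈ F0 := by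
  classical
  let S : Set (Subgroup G) := {F | F ≤ H ∧ F ≠ ⊥ ∧ ∀ l ∈ L, ∀ f ∈ F, l * f * l⁻¹ ∈ F}
  have hS : S.Nonempty := ⟨H, le_rfl, hne, hn⟩
  obtain ⟨F0, hF0, hmin⟩ :=
    WellFounded.has_min (measure (fun F : Subgroup G => Nat.card F)).wf S hS
  obtain ⟨hF0H, hF0ne, hF0L⟩ := hF0
  have hsol : Group.IsSolvable F0 :=
    Group.isSolvable_of_isSolvable_injective (f := Subgroup.inclusion hF0H)
      (Subgroup.inclusion_injective hF0H)
  have hnt : Nontrivial F0 := (Subgroup.nontrivial_iff_ne_bot F0).2 hF0ne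
  have hlt : ⁅F0, F0⁆ < F0 := by
    have h1 := Group.IsSolvable.commutator_lt_top_of_nontrivial F0
    rw [← Subgroup.map_subtype_commutator]
    conv_rhs => rw [← F0.range_subtype, MonoidHom.range_eq_map]
    exact (Subgroup.map_subtype_lt_map_subtype).2 h1
  have hKL : ∀ l ∈ L, ∀ f ∈ ⁅F0, F0⁆, l * f * l⁻¹ ∈ ⁅F0, F0⁆ := by
    intro l hl f hf
    have h1 : F0.map (MulAut.conj l).toMonoidHom ≤ F0 := by
      rintro _ ⟨x, hx, rfl⟩
      exact hF0L l hl x hx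
    have h2 : (⁅F0, F0⁆).map (MulAut.conj l).toMonoidHom ≤ ⁅F0, F0⁆ := by
      rw [Subgroup.map_commutator]
      exact Subgroup.commutator_mono h1 h1
    exact h2 ⟨f, hf, rfl⟩
  have hbot : ⁅F0, F0⁆ = ⊥ := by
    by_contra hK
    apply hmin ⁅F0, F0⁆ ⟨le_trans hlt.le hF0H, hK, hKL⟩
    show Nat.card (⁅F0, F0⁆ : Subgroup G) < Nat.card F0
    rcases lt_or_eq_of_le (Subgroup.card_le_of_le hlt.le) with h | h
    · exact h
    · exact absurd (Subgroup.eq_of_le_of_card_ge hlt.le h.ge) hlt.ne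
  refine ⟨F0, hF0H, hF0ne, ?_, hF0L⟩
  intro a ha b hb
  have h1 : ⁅a, b⁆ ∈ ⁅F0, F0⁆ := Subgroup.commutator_mem_commutator ha hb
  rw [hbot, Subgroup.mem_bot] at h1
  exact commutatorElement_eq_one_iff_mul_comm.1 h1

end Cfsg.Agent.Lib.Helper29SNAbn
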