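import Mathlib

namespace Cfsg.Agent.Lib.Helper29SylTextrans

theorem tex_trans_aux (j n : ℕ) (hn : n = 2 ^ j) (T : Subgroup (Equiv.Perm (Fin n)))
    (hTc : Nat.card T = 2 ^ ((n.factorial).factorization 2)) :
    ∀ i l : Fin n, ∃ π ∈ T, π i = l := by
  intro i l
  classical
  have hnpos : 0 < n := by rw [hn]; positivity
  -- the stabiliser in the full symmetric group
  have h1 : Nat.card (MulAction.orbit (Equiv.Perm (Fin n)) i) *
      Nat.card (MulAction.stabilizer (Equiv.Perm (Fin n)) i) = Nat.card (Equiv.Perm (Fin n)) := by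
    simpa [Nat.card_eq_fintype_card] using
      MulAction.card_orbit_mul_card_stabilizer_eq_card_group (Equiv.Perm (Fin n)) i
  have h2 : Nat.card (MulAction.orbit (Equiv.Perm (Fin n)) i) = n := by
    rw [MulAction.orbit_eq_univ]
    simp
  have h3 : Nat.card (Equiv.Perm (Fin n)) = n.factorial := by
    rw [Nat.card_eq_fintype_card, Fintype.card_perm, Fintype.card_fin]
  have h4 : n * Nat.card (MulAction.stabilizer (Equiv.Perm (Fin n)) i) = n.factorial := by
    rw [h2, h3] at h1
    exact h1
  obtain ⟨m, hm⟩ : ∃ m, n = m + 1 := ⟨n - 1, by omega⟩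
  have hfac : n.factorial = n * m.factorial := by rw [hm, Nat.factorial_succ]
  have h5 : Nat.card (MulAction.stabilizer (Equiv.Perm (Fin n)) i) = m.factorial := by
    rw [hfac] at h4
    exact Nat.eq_of_mul_eq_mul_left hnpos h4
  -- the stabiliser in T
  have h6 : Nat.card (MulAction.orbit T i) * Nat.card (MulAction.stabilizer T i) = Nat.card T := by
    simpa [Nat.card_eq_fintype_card] using
      MulAction.card_orbit_mul_card_stabilizer_eq_card_group T i
  have h7 : Nat.card (MulAction.stabilizer T i) ∣ m.factorial := by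
    rw [← h5]
    let f : MulAction.stabilizer T i →* MulAction.stabilizer (Equiv.Perm (Fin n)) i :=
      { toFun := fun x => ⟨x.1.1, x.2⟩
        map_one' := rfl
        map_mul' := fun _ _ => rfl }
    apply Subgroup.card_dvd_of_injective f
    intro x y hxy
    apply Subtype.ext
    apply Subtype.ext
    exact congrArg (fun z => z.1) hxy
  have h8 : Nat.card (MulAction.stabilizer T i) ∣ 2 ^ ((n.factorial).factorization 2) := by
    rw [← hTc, ← h6]
    exact Dvd.intro_left _ rfl
  obtain ⟨a, ha, hae⟩ := (Nat.dvd_prime_pow Nat.prime_two).1 h8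
  have h9 : a ≤ (m.factorial).factorization 2 := by
    rw [hae] at h7
    exact (Nat.Prime.pow_dvd_iff_le_factorization Nat.prime_two (Nat.factorial_ne_zero m)).1 h7
  have h10 : (n.factorial).factorization 2 = j + (m.factorial).factorization 2 := by
    rw [hfac, Nat.factorization_mul hnpos.ne' (Nat.factorial_ne_zero m)]
    simp [hn, Nat.Prime.factorization_self Nat.prime_two]
  have h11 : n ≤ Nat.card (MulAction.orbit T i) := by
    rw [hTc, hae, h10] at h6
    have hle : 2 ^ (j + a) ≤ Nat.card (MulAction.orbit T i) * 2 ^ a := by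
      rw [h6]
      exact Nat.pow_le_pow_right (by norm_num) (by omega)
    rw [pow_add, ← hn] at hle
    exact Nat.le_of_mul_le_mul_right hle (by positivity)
  have h12 : MulAction.orbit T i = Set.univ := by
    rw [Set.eq_univ_iff_ncard, ← Nat.card_coe_set_eq]
    apply le_antisymm
    · exact Nat.card_le_card_of_injective _ Subtype.val_injective
    · simpa using h11
  have h13 : l ∈ MulAction.orbit T i := by rw [h12]; trivial
  obtain ⟨π, hπ⟩ := h13
  exact ⟨π.1, π.2, hπ⟩

theorem tex_trans (j : ℕ) (T : Subgroup (Equiv.Perm (Fin (2 ^ j))))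
    (hTc : Nat.card T = 2 ^ (((2 ^ j).factorial).factorization 2)) :
    ∀ i l : Fin (2 ^ j), ∃ π ∈ T, π i = l :=
  tex_trans_aux j (2 ^ j) rfl T hTc

end Cfsg.Agent.Lib.Helper29SylTextrans
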