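import Cfsg.Agent.Lib.Helper2KWa
import Cfsg.Agent.Lib.Helper30Bender
import Cfsg.Agent.Lib.Helper1SylowInv
import Cfsg.Agent.Lib.Helper2Sylow
import Cfsg.Agent.S0143
import Cfsg.Agent.S0559
import Cfsg.Agent.S0561
import Cfsg.Agent.S0562

set_option autoImplicit false

/-! Wielandt: products of nilpotent groups of coprime orders; analysis of a simple minimal
counterexample, part 1. -/

namespace Cfsg.Agent.Lib.Helper2KWb

open Subgroup
open scoped Pointwise
open Cfsg.Agent.Lib.Helper31Nilpotent Cfsg.Agent.Lib.Helper2Conj Cfsg.Agent.Lib.Helper2KWa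

variable {G : Type*} [Group G]

structure Fac (A B : Subgroup G) : Prop where
  nA : Group.IsNilpotent A
  nB : Group.IsNilpotent B
  cop : (Nat.card A).Coprime (Nat.card B)
  fac : ∀ g : G, ∃ a ∈ A, ∃ b ∈ B, g = a * b

structure Env (G : Type*) [Group G] : Prop where
  simple : IsSimpleGroup G
  ns : ¬ Group.IsSolvable G
  ih : ∀ H A' B' : Subgroup G, H ≠ ⊤ → A' ≤ H → B' ≤ H → Group.IsNilpotent A' →
    Group.IsNilpotent B' → (Nat.card A').Coprime (Nat.card B') →
    (∀ h ∈ H, ∃ a ∈ A', ∃ b ∈ B', h = a * b) → Group.IsSolvable H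

theorem card_of_fac {H A' B' : Subgroup G} (hA' : A' ≤ H) (hB' : B' ≤ H) (hd : A' ⊓ B' = ⊥)
    (hfac : ∀ h ∈ H, ∃ a ∈ A', ∃ b ∈ B', h = a * b) :
    Nat.card H = Nat.card A' * Nat.card B' := by
  rw [← Nat.card_prod]
  symm
  refine Nat.card_congr (Equiv.ofBijective
    (fun p : A' × B' => (⟨p.1 * p.2, H.mul_mem (hA' p.1.2) (hB' p.2.2)⟩ : H)) ⟨?_, ?_⟩)
  · intro p q hpq
    exact Subgroup.mul_injective_of_disjoint (disjoint_iff.mpr hd) (congrArg Subtype.val hpq)
  · rintro ⟨h, hh⟩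
    obtain ⟨a, ha, b, hb, rfl⟩ := hfac h hh
    exact ⟨(⟨a, ha⟩, ⟨b, hb⟩), rfl⟩

namespace Fac

variable {A B : Subgroup G}

theorem symm (c : Fac A B) : Fac B A where
  nA := c.nB
  nB := c.nA
  cop := c.cop.symm
  fac := fun g => by
    obtain ⟨a, ha, b, hb, h⟩ := c.fac g⁻¹
    exact ⟨b⁻¹, B.inv_mem hb, a⁻¹, A.inv_mem ha, by rw [← mul_inv_rev, ← h, inv_inv]⟩

theorem conj [Finite G] (c : Fac A B) (x y : G) :
    Fac (MulAut.conj x • A) (MulAut.conj y • B) where
  nA := isNilpotent_conj c.nA x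
  nB := isNilpotent_conj c.nB y
  cop := by rw [card_conj_smul, card_conj_smul]; exact c.cop
  fac := (Cfsg.Agent.S0559.result A B _ _ c.fac ⟨x, rfl⟩ ⟨y, rfl⟩).1

theorem conj_right [Finite G] (c : Fac A B) (y : G) : Fac A (MulAut.conj y • B) := by
  have := c.conj 1 y
  rwa [map_one, one_smul] at this

theorem inf_eq_bot (c : Fac A B) : A ⊓ B = ⊥ :=
  disjoint_iff.mp (Subgroup.disjoint_of_coprime_natCard c.cop)

theorem card (c : Fac A B) : Nat.card G = Nat.card A * Nat.card B := by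
  rw [← card_of_fac (H := ⊤) le_top le_top c.inf_eq_bot (fun h _ => c.fac h), Subgroup.card_top]

theorem not_dvd_right (c : Fac A B) {r : ℕ} (hr : r.Prime) (h : r ∣ Nat.card A) :
    ¬ r ∣ Nat.card B := fun h2 =>
  hr.one_lt.ne' (Nat.eq_one_of_dvd_coprimes c.cop h h2)

theorem dedekind (c : Fac A B) {H : Subgroup G} (hAH : A ≤ H) :
    ∀ h ∈ H, ∃ a ∈ H ⊓ A, ∃ b ∈ H ⊓ B, h = a * b := by
  intro h hh
  obtain ⟨a, ha, b, hb, rfl⟩ := c.fac h
  refine ⟨a, ⟨hAH ha, ha⟩, b, ⟨?_, hb⟩, rfl⟩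
  have := H.mul_mem (H.inv_mem (hAH ha)) hh
  simpa using this

theorem dedekind' (c : Fac A B) {H : Subgroup G} (hBH : B ≤ H) :
    ∀ h ∈ H, ∃ a ∈ H ⊓ A, ∃ b ∈ H ⊓ B, h = a * b := by
  intro h hh
  obtain ⟨a, ha, b, hb, rfl⟩ := c.fac h
  refine ⟨a, ⟨?_, ha⟩, b, ⟨hBH hb, hb⟩, rfl⟩
  have := H.mul_mem hh (H.inv_mem (hBH hb))
  simpa using this

theorem coprime_inf (c : Fac A B) (H : Subgroup G) :
    (Nat.card (H ⊓ A : Subgroup G)).Coprime (Nat.card (H ⊓ B : Subgroup G)) :=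
  Nat.Coprime.of_dvd (Subgroup.card_dvd_of_le inf_le_right) (Subgroup.card_dvd_of_le inf_le_right)
    c.cop

end Fac

namespace Env

variable {A B : Subgroup G}

theorem solvable_of_fac (E : Env G) (c : Fac A B) {H : Subgroup G} (hH : H ≠ ⊤)
    (hfac : ∀ h ∈ H, ∃ a ∈ H ⊓ A, ∃ b ∈ H ⊓ B, h = a * b) : Group.IsSolvable H :=
  E.ih H (H ⊓ A) (H ⊓ B) hH inf_le_left inf_le_left (isNilpotent_of_le c.nA inf_le_right)
    (isNilpotent_of_le c.nB inf_le_right) (c.coprime_inf H) hfac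

theorem eq_top_of_normalizer (E : Env G) {N : Subgroup G} (hn : normalizer (N : Set G) = ⊤)
    (hne : N ≠ ⊥) : N = ⊤ := by
  have : N.Normal := normalizer_eq_top_iff.mp hn
  have := E.simple
  exact (this.eq_bot_or_eq_top_of_normal N inferInstance).resolve_left hne

theorem pgroup_eq_bot [Finite G] (E : Env G) {t : ℕ} [Fact t.Prime] {X : Subgroup G}
    (hX : IsPGroup t X) (hn : normalizer (X : Set G) = ⊤) : X = ⊥ := by
  by_contra hne
  have htop := E.eq_top_of_normalizer hn hne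
  subst htop
  have h1 : IsPGroup t G := hX.of_equiv Subgroup.topEquiv
  have := h1.isNilpotent
  exact E.ns inferInstance

theorem central_eq_one (E : Env G) {z : G} (hz : ∀ g : G, g * z = z * g) : z = 1 := by
  have := E.simple
  rcases this.eq_bot_or_eq_top_of_normal (Subgroup.center G) inferInstance with h | h
  · have : z ∈ Subgroup.center G := Subgroup.mem_center_iff.mpr hz
    rw [h] at this
    exact Subgroup.mem_bot.mp this
  · exfalso
    apply E.ns
    apply Group.isSolvable_of_comm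
    intro a b
    have : b ∈ Subgroup.center G := h ▸ Subgroup.mem_top b
    exact (Subgroup.mem_center_iff.mp this a)

theorem left_ne_bot (E : Env G) (c : Fac A B) : A ≠ ⊥ := by
  rintro rfl
  apply E.ns
  have hB : B = ⊤ := by
    rw [eq_top_iff]
    intro g _
    obtain ⟨a, ha, b, hb, rfl⟩ := c.fac g
    rw [Subgroup.mem_bot.mp ha, one_mul]
    exact hb
  subst hB
  have := c.nB
  have : Group.IsNilpotent G := (Group.isNilpotent_congr Subgroup.topEquiv).mp this
  infer_instance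

theorem left_ne_top (E : Env G) (c : Fac A B) : A ≠ ⊤ := by
  rintro rfl
  apply E.ns
  have := c.nA
  have : Group.IsNilpotent G := (Group.isNilpotent_congr Subgroup.topEquiv).mp this
  infer_instance

/-- a nontrivial normal subgroup of `A` generates `G` together with `B` -/
theorem sup_eq_top (E : Env G) (c : Fac A B) {N : Subgroup G} (hne : N ≠ ⊥)
    (hnorm : A ≤ normalizer (N : Set G)) : N ⊔ B = ⊤ := by
  have h1 : Subgroup.normalClosure (N : Set G) = ⊤ := by
    have := E.simple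
    refine (this.eq_bot_or_eq_top_of_normal _ inferInstance).resolve_left ?_
    intro h
    apply hne
    rw [eq_bot_iff, ← h]
    exact Subgroup.le_normalClosure
  rw [eq_top_iff, ← h1, Subgroup.normalClosure, Subgroup.closure_le]
  intro x hx
  obtain ⟨n, hn, hc⟩ := Group.mem_conjugatesOfSet_iff.mp hx
  obtain ⟨g, rfl⟩ := isConj_iff.mp hc
  obtain ⟨b, hb, a, ha, rfl⟩ := c.symm.fac g
  have h2 : a * n * a⁻¹ ∈ N := (le_normalizer_iff.mp hnorm) a ha n hn
  have h3 : b * a * n * (b * a)⁻¹ = b * (a * n * a⁻¹) * b⁻¹ := by group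
  rw [h3]
  exact (N ⊔ B).mul_mem ((N ⊔ B).mul_mem (mem_sup_right hb) (mem_sup_left h2))
    ((N ⊔ B).inv_mem (mem_sup_right hb))

theorem exists_prime_dvd_left [Finite G] (E : Env G) (c : Fac A B) :
    ∃ r : ℕ, r.Prime ∧ r ∣ Nat.card A := by
  apply Nat.exists_prime_and_dvd
  intro h
  exact E.left_ne_bot c ((Subgroup.card_eq_one).mp h)

/-- `A` is not of prime power order -/
theorem exists_other_prime [Finite G] (E : Env G) (c : Fac A B) (r : ℕ) :
    ∃ t : ℕ, t.Prime ∧ t ∣ Nat.card A ∧ t ≠ r := by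
  by_contra hcon
  push Not at hcon
  obtain ⟨r', hr', hr'd⟩ := E.exists_prime_dvd_left c
  have hrr := hcon r' hr' hr'd
  subst hrr
  have hcard : Nat.card A = r' ^ (Nat.card A).primeFactorsList.length :=
    Nat.eq_prime_pow_of_unique_prime_dvd Nat.card_pos.ne' (fun {d} hd hdd => hcon d hd hdd)
  obtain ⟨s, hs, hsd⟩ := E.exists_prime_dvd_left c.symm
  have : Fact s.Prime := ⟨hs⟩
  obtain ⟨b, hbB, hbo, hbc⟩ := exists_central_prime c.nB hsd
  have hb1 : b ≠ 1 := by
    rintro rfl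
    rw [orderOf_one] at hbo
    exact hs.one_lt.ne hbo
  have hle : B ≤ centralizer ({b} : Set G) := by
    intro x hx
    rw [Subgroup.mem_centralizer_singleton_iff]
    exact hbc x hx
  have hidx : B.index = Nat.card A := by
    have h1 := B.card_mul_index
    rw [c.card, mul_comm] at h1
    exact Nat.eq_of_mul_eq_mul_right Nat.card_pos h1
  have hdvd : (centralizer ({b} : Set G)).index ∣ r' ^ (Nat.card A).primeFactorsList.length := by
    rw [← hcard, ← hidx]
    exact Subgroup.index_dvd_of_le hle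
  obtain ⟨j, _, hj⟩ := (Nat.dvd_prime_pow hr').mp hdvd
  have := E.simple
  have hprime := Cfsg.Agent.S0143.result r' j hr' b hb1 hj
  have : Fact (Nat.card G).Prime := ⟨hprime⟩
  have hcyc : IsCyclic G := isCyclic_of_prime_card rfl
  apply E.ns
  apply Group.isSolvable_of_comm
  intro x y
  exact (IsCyclic.isMulCommutative (α := G)).is_comm.comm x y

end Env

/-! ### Sylow facts -/

theorem card_pt_of_card [Finite G] {r : ℕ} [Fact r.Prime] {H A' B' : Subgroup G}
    (hcard : Nat.card H = Nat.card A' * Nat.card B') (hr : ¬ r ∣ Nat.card B') :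
    Nat.card (pt A' r) = r ^ (Nat.card H).factorization r := by
  rw [card_pt, hcard, Nat.factorization_mul Nat.card_pos.ne' Nat.card_pos.ne', Finsupp.add_apply,
    Nat.factorization_eq_zero_of_not_dvd hr, add_zero]

theorem Fac.exists_sylow [Finite G] {A B : Subgroup G} (c : Fac A B) {r : ℕ} [hr : Fact r.Prime]
    (h : r ∣ Nat.card A) : ∃ P : Sylow r G, (P : Subgroup G) = pt A r := by
  have h1 : Nat.card (pt A r) = r ^ (Nat.card G).factorization r := by
    have := card_pt_of_card (r := r) (H := ⊤) (A' := A) (B' := B)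
      (by rw [Subgroup.card_top]; exact c.card) (c.not_dvd_right hr.out h)
    rwa [Subgroup.card_top] at this
  exact ⟨Sylow.ofCard _ h1, rfl⟩

theorem Fac.exists_conj_sylow [Finite G] {A B : Subgroup G} (c : Fac A B) {r : ℕ}
    [hr : Fact r.Prime] (h : r ∣ Nat.card A) (R : Sylow r G) :
    ∃ x : G, (R : Subgroup G) = pt (MulAut.conj x • A) r := by
  obtain ⟨P, hP⟩ := c.exists_sylow h
  obtain ⟨x, hx⟩ := MulAction.exists_smul_eq G P R
  exact ⟨x, by rw [← hx, Sylow.coe_subgroup_smul, hP, pt_conj c.nA]⟩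

theorem le_normalizer_of_le_pt [Finite G] {B X : Subgroup G} (hB : Group.IsNilpotent B) {s : ℕ}
    [Fact s.Prime] (hX : X ≤ pt B s) (h : pt B s ≤ normalizer (X : Set G)) :
    B ≤ normalizer (X : Set G) := by
  intro β hβ
  obtain ⟨u, v, hu, hv, rfl, hk, hvc⟩ := Cfsg.Agent.Lib.Helper2Parts.exists_parts s β
  have huB : u ∈ B := (zpowers_le.mpr hβ) hu
  have hvB : v ∈ B := (zpowers_le.mpr hβ) hv
  refine mul_mem (h ((mem_pt hB).mpr ⟨huB, hk⟩)) ?_
  apply mem_normalizer_of_forall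
  intro x hx
  have := commute_of_mem_pt hB (hX hx) hvB hvc
  rw [← this, mul_inv_cancel_right]
  exact hx

theorem coprime_index_subgroupOf [Finite G] {r : ℕ} [Fact r.Prime] {U X : Subgroup G}
    (hXU : X ≤ U) (hcard : Nat.card X = r ^ (Nat.card U).factorization r) :
    (Nat.card (X.subgroupOf U)).Coprime (X.subgroupOf U).index := by
  have h1 : Nat.card (X.subgroupOf U) = r ^ (Nat.card U).factorization r := by
    rw [← hcard]
    exact Nat.card_congr (subgroupOfEquivOfLe hXU).toEquiv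
  exact (Sylow.ofCard (X.subgroupOf U) h1).card_coprime_index

theorem subgroupOf_le_normalizer {U X Y : Subgroup G} (h : Y ≤ normalizer (X : Set G)) :
    Y.subgroupOf U ≤ normalizer ((X.subgroupOf U : Subgroup U) : Set U) := by
  rw [le_normalizer_iff]
  intro y hy x hx
  rw [mem_subgroupOf] at *
  exact (le_normalizer_iff.mp h) _ hy _ hx

theorem isSolvable_of_le {K U : Subgroup G} (hU : Group.IsSolvable U) (h : K ≤ U) :
    Group.IsSolvable K :=
  Group.isSolvable_of_isSolvable_injective (Subgroup.inclusion_injective h)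

namespace Env

variable {A B : Subgroup G}

theorem core [Finite G] (E : Env G) (c : Fac A B) {r s : ℕ} [hr : Fact r.Prime]
    [hs : Fact s.Prime] (hrA : r ∣ Nat.card A) (hsB : s ∣ Nat.card B) {N : Subgroup G}
    (hN : N ≤ pt A r) (hne : N ≠ ⊥) (hnorm : A ≤ normalizer (N : Set G))
    (htop : N ⊔ pt B s ≠ ⊤) :
    ∃ X : Subgroup G, X ≠ ⊥ ∧ N ≤ normalizer (X : Set G) ∧ pt B s ≤ normalizer (X : Set G) ∧
      (IsPGroup r X ∨ IsPGroup s X) := by
  obtain ⟨H, hH⟩ : ∃ H, H = N ⊔ pt B s := ⟨_, rfl⟩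
  obtain ⟨U, hU⟩ : ∃ U, U = normalizer (H : Set G) := ⟨_, rfl⟩
  have hHU : H ≤ U := hU ▸ le_normalizer
  have hNH : N ≤ H := hH ▸ le_sup_left
  have hSH : pt B s ≤ H := hH ▸ le_sup_right
  have hUtop : U ≠ ⊤ := by
    intro h
    rw [hU] at h
    exact htop (hH ▸ E.eq_top_of_normalizer h (ne_bot_of_le_ne_bot hne hNH))
  have hNA : N ≤ A := hN.trans (pt_le A r)
  have hfacU : ∀ g ∈ U, ∃ h ∈ U ⊓ A, ∃ k ∈ U ⊓ B, g = h * k := by
    have := Cfsg.Agent.S0562.result A B N (pt B s) c.fac hNA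
      ((normal_subgroupOf_iff_le_normalizer hNA).mpr hnorm) (pt_le B s)
      ((normal_subgroupOf_iff_le_normalizer (pt_le B s)).mpr (le_normalizer_pt c.nB s))
    rw [← hH, ← hU] at this
    exact this
  have hsolU : Group.IsSolvable U := E.solvable_of_fac c hUtop hfacU
  have nUA := isNilpotent_of_le c.nA (inf_le_right : U ⊓ A ≤ A)
  have nUB := isNilpotent_of_le c.nB (inf_le_right : U ⊓ B ≤ B)
  obtain ⟨R1, hR1⟩ : ∃ R1, R1 = pt (U ⊓ A) r := ⟨_, rfl⟩
  have hNR1 : N ≤ R1 := by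
    intro x hx
    have := (mem_pt c.nA).mp (hN hx)
    rw [hR1]
    exact (mem_pt nUA).mpr ⟨⟨hHU (hNH hx), this.1⟩, this.2⟩
  have hSU : pt B s ≤ U := hSH.trans hHU
  have hR1U : R1 ≤ U := hR1 ▸ (pt_le _ _).trans inf_le_left
  have hS1 : pt (U ⊓ B) s = pt B s := le_antisymm (pt_mono c.nB inf_le_right s) (fun x hx => by
    have := (mem_pt c.nB).mp hx
    exact (mem_pt nUB).mpr ⟨⟨hSU hx, this.1⟩, this.2⟩)
  have hcardU : Nat.card U = Nat.card (U ⊓ A : Subgroup G) * Nat.card (U ⊓ B : Subgroup G) :=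
    card_of_fac inf_le_left inf_le_left
      (disjoint_iff.mp (Subgroup.disjoint_of_coprime_natCard (c.coprime_inf U))) hfacU
  have hrB : ¬ r ∣ Nat.card (U ⊓ B : Subgroup G) := fun h =>
    c.not_dvd_right hr.out hrA (h.trans (Subgroup.card_dvd_of_le inf_le_right))
  have hsA : ¬ s ∣ Nat.card (U ⊓ A : Subgroup G) := fun h =>
    c.symm.not_dvd_right hs.out hsB (h.trans (Subgroup.card_dvd_of_le inf_le_right))
  have hcR1 : Nat.card R1 = r ^ (Nat.card U).factorization r := hR1 ▸ card_pt_of_card hcardU hrB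
  have hcS1 : Nat.card (pt B s) = s ^ (Nat.card U).factorization s := by
    rw [← hS1]
    exact card_pt_of_card (by rw [hcardU, mul_comm]) hsA
  obtain ⟨S, hS⟩ := Cfsg.Agent.S0561.result (G := U) ((U ⊓ A).subgroupOf U)
    ((U ⊓ B).subgroupOf U) (R1.subgroupOf U) ((pt B s).subgroupOf U)
    (by
      intro g
      obtain ⟨h, hh, k, hk, e⟩ := hfacU g g.2
      exact ⟨⟨h, hh.1⟩, mem_subgroupOf.mpr hh, ⟨k, hk.1⟩, mem_subgroupOf.mpr hk, Subtype.ext e⟩)
    (Subgroup.comap_mono (hR1 ▸ pt_le _ _))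
    ((normal_subgroupOf_iff_le_normalizer (Subgroup.comap_mono (hR1 ▸ pt_le _ _))).mpr
      (subgroupOf_le_normalizer (hR1 ▸ le_normalizer_pt nUA r)))
    (Subgroup.comap_mono (hS1 ▸ pt_le _ _))
    ((normal_subgroupOf_iff_le_normalizer (Subgroup.comap_mono (hS1 ▸ pt_le _ _))).mpr
      (subgroupOf_le_normalizer (inf_le_right.trans (le_normalizer_pt c.nB s))))
    (coprime_index_subgroupOf hR1U hcR1) (coprime_index_subgroupOf hSU hcS1) 1 1
  simp only [map_one, one_smul] at hS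
  obtain ⟨K, hK⟩ : ∃ K, K = S.map U.subtype := ⟨_, rfl⟩
  have hKU : K ≤ U := hK ▸ map_subtype_le _
  have hKfac : ∀ k ∈ K, ∃ a ∈ R1, ∃ b ∈ pt B s, k = a * b := by
    intro k hk
    rw [hK] at hk
    obtain ⟨y, hy, rfl⟩ := hk
    have hy' : y ∈ (S : Set U) := hy
    rw [hS] at hy'
    obtain ⟨a, ha, b, hb, rfl⟩ := Set.mem_mul.mp hy'
    exact ⟨a, mem_subgroupOf.mp ha, b, mem_subgroupOf.mp hb, rfl⟩
  have hR1K : R1 ≤ K := by
    intro x hx
    rw [hK]
    refine ⟨⟨x, hR1U hx⟩, ?_, rfl⟩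
    rw [hS]
    exact Set.mem_mul.mpr ⟨⟨x, hR1U hx⟩, mem_subgroupOf.mpr hx, 1, one_mem _, mul_one _⟩
  have hSK : pt B s ≤ K := by
    intro x hx
    rw [hK]
    refine ⟨⟨x, hSU hx⟩, ?_, rfl⟩
    rw [hS]
    exact Set.mem_mul.mpr ⟨1, one_mem _, ⟨x, hSU hx⟩, mem_subgroupOf.mpr hx, one_mul _⟩
  have hrs : r ≠ s := by
    rintro rfl
    exact c.not_dvd_right hr.out hrA hsB
  have hcardK : Nat.card K = Nat.card R1 * Nat.card (pt B s) := by
    apply card_of_fac hR1K hSK _ hKfac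
    apply disjoint_iff.mp
    apply Subgroup.disjoint_of_coprime_natCard
    rw [hcR1, hcS1]
    exact Nat.Coprime.pow _ _ ((Nat.coprime_primes hr.out hs.out).mpr hrs)
  have hsolK : Group.IsSolvable K := isSolvable_of_le hsolU hKU
  have hKne : K ≠ ⊥ := ne_bot_of_le_ne_bot hne (hNR1.trans hR1K)
  have hFne : Cfsg.fittingOf K ≠ ⊥ := by
    intro h
    have h1 := Cfsg.Agent.Lib.Helper30Bender.inf_centralizer_fittingOf_le hsolK
    rw [h] at h1
    apply hKne
    rw [eq_bot_iff]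
    intro x hx
    apply h1
    refine Subgroup.mem_inf.mpr ⟨hx, ?_⟩
    rw [mem_centralizer_iff]
    intro y hy
    rw [Subgroup.mem_bot.mp hy]
    simp
  have nF := Cfsg.Agent.Lib.Helper30Bender.fittingOf_isNilpotent K
  obtain ⟨t, ht, htd⟩ := Nat.exists_prime_and_dvd
    (fun h => hFne ((Subgroup.card_eq_one).mp h) : Nat.card (Cfsg.fittingOf K) ≠ 1)
  have : Fact t.Prime := ⟨ht⟩
  have hKX : K ≤ normalizer (pt (Cfsg.fittingOf K) t : Set G) :=
    (Cfsg.Agent.Lib.Helper30Bender.le_normalizer_fittingOf K).trans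
      (normalizer_le_normalizer_pt nF t)
  refine ⟨pt (Cfsg.fittingOf K) t, pt_ne_bot htd, (hNR1.trans hR1K).trans hKX, hSK.trans hKX, ?_⟩
  have htK : t ∣ Nat.card R1 * Nat.card (pt B s) := by
    rw [← hcardK]
    exact htd.trans (Subgroup.card_dvd_of_le (Cfsg.Agent.Lib.Helper30Bender.fittingOf_le K))
  rw [hcR1, hcS1] at htK
  rcases (Nat.Prime.dvd_mul ht).mp htK with h | h
  · left
    rw [← (Nat.prime_dvd_prime_iff_eq ht hr.out).mp (ht.dvd_of_dvd_pow h)]
    exact isPGroup_pt _ _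
  · right
    rw [← (Nat.prime_dvd_prime_iff_eq ht hs.out).mp (ht.dvd_of_dvd_pow h)]
    exact isPGroup_pt _ _

theorem kill_right [Finite G] (E : Env G) (c : Fac A B) {s : ℕ} [Fact s.Prime]
    (hsB : s ∣ Nat.card B) {N X : Subgroup G} (hne : N ≠ ⊥) (hnorm : A ≤ normalizer (N : Set G))
    (hX : IsPGroup s X) (hNX : N ≤ normalizer (X : Set G))
    (hSX : pt B s ≤ normalizer (X : Set G)) : X = ⊥ := by
  obtain ⟨P, hP⟩ := c.symm.exists_sylow hsB
  have h1 : X ≤ pt B s := hP ▸ le_sylow_of_le_normalizer P hX (hP ▸ hSX)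
  have h2 : B ≤ normalizer (X : Set G) := le_normalizer_of_le_pt c.nB h1 hSX
  apply E.pgroup_eq_bot hX
  rw [eq_top_iff, ← E.sup_eq_top c hne hnorm]
  exact sup_le hNX h2

/-- a Sylow subgroup of `A` and a Sylow subgroup of `B` generate `G` -/
theorem pt_sup_pt [Finite G] (E : Env G) (c : Fac A B) {r s : ℕ} [Fact r.Prime] [Fact s.Prime]
    (hrA : r ∣ Nat.card A) (hsB : s ∣ Nat.card B) : pt A r ⊔ pt B s = ⊤ := by
  by_contra htop
  obtain ⟨X, hXne, hNX, hSX, h | h⟩ :=
    E.core c hrA hsB le_rfl (pt_ne_bot hrA) (le_normalizer_pt c.nA r) htop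
  · exact hXne (E.kill_right c.symm hrA (pt_ne_bot hsB) (le_normalizer_pt c.nB s) h hSX hNX)
  · exact hXne (E.kill_right c hsB (pt_ne_bot hrA) (le_normalizer_pt c.nA r) h hNX hSX)

/-- no nontrivial `q`-subgroup (`q ∣ |B|`) is normalized by a Sylow `r`-subgroup (`r ∣ |A|`) -/
theorem no_normalized [Finite G] (E : Env G) (c : Fac A B) {r q : ℕ} [Fact r.Prime]
    [Fact q.Prime] (hrA : r ∣ Nat.card A) (hqB : q ∣ Nat.card B) (R : Sylow r G)
    {T : Subgroup G} (hT : IsPGroup q T) (hRT : (R : Subgroup G) ≤ normalizer (T : Set G)) :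
    T = ⊥ := by
  obtain ⟨Q, hQ⟩ := hT.exists_le_sylow
  obtain ⟨x, hx⟩ := c.exists_conj_sylow hrA R
  obtain ⟨y, hy⟩ := c.symm.exists_conj_sylow hqB Q
  have c' := c.conj x y
  obtain ⟨s, hs, hsB, hsq⟩ := E.exists_other_prime c.symm q
  have : Fact s.Prime := ⟨hs⟩
  have htop := E.pt_sup_pt c' (r := r) (s := s) (by rwa [card_conj_smul])
    (by rwa [card_conj_smul])
  apply E.pgroup_eq_bot hT
  rw [eq_top_iff, ← htop]
  refine sup_le (hx ▸ hRT) ?_
  intro z hz
  apply mem_normalizer_of_forall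
  intro t ht
  have ht' : t ∈ pt (MulAut.conj y • B) q := hy ▸ hQ ht
  have := commute_pt_pt c'.nB hsq hz ht'
  rw [this, mul_inv_cancel_right]
  exact ht

theorem no_normalized' [Finite G] (E : Env G) (c : Fac A B) {r : ℕ} [hr : Fact r.Prime]
    (hrA : r ∣ Nat.card A) (R : Sylow r G) {K : Subgroup G}
    (hK : (Nat.card K).Coprime (Nat.card A))
    (hRK : (R : Subgroup G) ≤ normalizer (K : Set G)) : K = ⊥ := by
  by_contra hne
  obtain ⟨q, hq, hqd⟩ := Nat.exists_prime_and_dvd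
    (fun h => hne ((Subgroup.card_eq_one).mp h) : Nat.card K ≠ 1)
  have : Fact q.Prime := ⟨hq⟩
  have hqA : ¬ q ∣ Nat.card A := fun h => hq.one_lt.ne' (Nat.eq_one_of_dvd_coprimes hK hqd h)
  have hqB : q ∣ Nat.card B := by
    have h1 : q ∣ Nat.card A * Nat.card B := by
      rw [← c.card]
      exact hqd.trans (Subgroup.card_subgroup_dvd_card K)
    exact ((Nat.Prime.dvd_mul hq).mp h1).resolve_left hqA
  obtain ⟨n, hn⟩ := IsPGroup.iff_card.mp R.isPGroup'
  have hcop : (Nat.card (R : Subgroup G)).Coprime (Nat.card K) := by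
    rw [hn]
    apply Nat.Coprime.pow_left
    rw [Nat.Prime.coprime_iff_not_dvd hr.out]
    intro h
    exact hr.out.one_lt.ne' (Nat.eq_one_of_dvd_coprimes hK h hrA)
  have hsol : Group.IsSolvable (R : Subgroup G) := by
    have := R.isPGroup'.isNilpotent
    infer_instance
  obtain ⟨P, hP⟩ := Cfsg.Agent.Lib.Helper1SylowInv.exists_invariant_sylow (R : Subgroup G) K hRK
    hcop (Or.inl hsol) q
  have h1 := E.no_normalized c hrA hqB R (P.isPGroup'.map K.subtype) hP
  exact P.ne_bot_of_dvd_card hqd ((map_eq_bot_iff_of_injective _ K.subtype_injective).mp h1)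

theorem sup_pt_eq_top [Finite G] (E : Env G) (c : Fac A B) {r s : ℕ} [Fact r.Prime]
    [Fact s.Prime] (hrA : r ∣ Nat.card A) (hsB : s ∣ Nat.card B) {N : Subgroup G}
    (hN : N ≤ pt A r) (hne : N ≠ ⊥) (hnorm : A ≤ normalizer (N : Set G)) :
    N ⊔ pt B s = ⊤ := by
  by_contra htop
  obtain ⟨X, hXne, hNX, hSX, h | h⟩ := E.core c hrA hsB hN hne hnorm htop
  · obtain ⟨P, hP⟩ := c.symm.exists_sylow hsB
    exact hXne (E.no_normalized c.symm hsB hrA P h (hP ▸ hSX))
  · exact hXne (E.kill_right c hsB hne hnorm h hNX hSX)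

/-- the centralizer of a nontrivial central element of `A` is `A` -/
theorem centralizer_le [Finite G] (E : Env G) (c : Fac A B) {a : G} (haA : a ∈ A)
    (hac : ∀ x ∈ A, x * a = a * x) (ha1 : a ≠ 1) : centralizer ({a} : Set G) ≤ A := by
  obtain ⟨r, hr, hrd, k, hk⟩ := exists_pow_prime_order ha1
  have : Fact r.Prime := ⟨hr⟩
  have hrA : r ∣ Nat.card A := hrd.trans (Subgroup.orderOf_dvd_natCard A haA)
  intro z hz
  obtain ⟨α, hα, β, hβ, rfl⟩ := c.fac z
  have hβa : Commute β a := by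
    have h1 : α * β * a = a * (α * β) := Subgroup.mem_centralizer_singleton_iff.mp hz
    have h2 := hac α hα
    have h3 : α * (β * a) = α * (a * β) := by
      rw [← mul_assoc, h1, ← mul_assoc, ← h2, mul_assoc]
    exact mul_left_cancel h3
  suffices hβ1 : β = 1 by rw [hβ1, mul_one]; exact hα
  by_contra hβ1
  obtain ⟨q, hq, hqd, j, hj⟩ := exists_pow_prime_order hβ1
  have : Fact q.Prime := ⟨hq⟩
  have hqB : q ∣ Nat.card B := hqd.trans (Subgroup.orderOf_dvd_natCard B hβ)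
  obtain ⟨s, hs, hsB, hsq⟩ := E.exists_other_prime c.symm q
  have : Fact s.Prime := ⟨hs⟩
  have hmem : a ^ k ∈ pt A r := (mem_pt c.nA).mpr ⟨A.pow_mem haA k, 1, by rw [hk, pow_one]⟩
  have hne : zpowers (a ^ k) ≠ ⊥ := by
    rw [Ne, zpowers_eq_bot]
    intro h
    rw [h, orderOf_one] at hk
    exact hr.one_lt.ne hk
  have hnorm : A ≤ normalizer (zpowers (a ^ k) : Set G) := by
    rw [le_normalizer_iff]
    intro x hx y hy
    obtain ⟨n, rfl⟩ := mem_zpowers_iff.mp hy
    have h1 : Commute x ((a ^ k) ^ n) := ((show Commute x a from hac x hx).pow_right k).zpow_right n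
    rw [h1.eq, mul_inv_cancel_right]
    exact hy
  have htop := E.sup_pt_eq_top c hrA hsB (zpowers_le.mpr hmem) hne hnorm
  have hle : zpowers (a ^ k) ⊔ pt B s ≤ centralizer ({β ^ j} : Set G) := by
    refine sup_le ?_ ?_
    · rw [zpowers_le, Subgroup.mem_centralizer_singleton_iff]
      exact ((hβa.pow_pow j k).symm).eq
    · intro y hy
      rw [Subgroup.mem_centralizer_singleton_iff]
      exact commute_pt_pt c.nB hsq hy
        ((mem_pt c.nB).mpr ⟨B.pow_mem hβ j, 1, by rw [hj, pow_one]⟩)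
  have h1 : β ^ j = 1 := E.central_eq_one (fun g => by
    have : g ∈ centralizer ({β ^ j} : Set G) := hle (htop ▸ Subgroup.mem_top g)
    exact Subgroup.mem_centralizer_singleton_iff.mp this)
  rw [h1, orderOf_one] at hj
  exact hq.one_lt.ne hj

end Env

end Cfsg.Agent.Lib.Helper2KWb
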