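import Mathlib.GroupTheory.Nilpotent
import Mathlib.GroupTheory.Subgroup.Centralizer
import Mathlib.Order.Preorder.Finite

set_option autoImplicit false

namespace Cfsg.Agent.Lib.Helper2Nilp

open Subgroup

/-- Normalisers grow in nilpotent subgroups (relative form). -/
theorem exists_mem_normalizer_not_mem {G : Type*} [Group G] {D M : Subgroup G}
    (hM : Group.IsNilpotent M) (hD : D < M) :
    ∃ x ∈ M, x ∈ normalizer (D : Set G) ∧ x ∉ D := by
  have hnc : NormalizerCondition M := Group.normalizerCondition_of_isNilpotent
  have h1 : D.subgroupOf M < ⊤ := by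
    rw [lt_top_iff_ne_top, Ne, subgroupOf_eq_top]
    exact fun h => hD.not_ge h
  have h2 := hnc _ h1
  obtain ⟨x, hx1, hx2⟩ := SetLike.exists_of_lt h2
  rw [← subgroupOf_normalizer_eq hD.le] at hx1
  exact ⟨x, x.2, hx1, hx2⟩

/-- Adjoining a centralising element to an abelian subgroup keeps it abelian. -/
theorem isMulCommutative_sup_zpowers {G : Type*} [Group G] {A : Subgroup G}
    (hA : IsMulCommutative A) {y : G} (hy : y ∈ centralizer (A : Set G)) :
    IsMulCommutative (A ⊔ zpowers y : Subgroup G) := by
  rw [← le_centralizer_iff_isMulCommutative]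
  have h1 : zpowers y ≤ centralizer (A : Set G) := by
    rw [zpowers_le]; exact hy
  have h2 : A ≤ centralizer (A : Set G) := le_centralizer_iff_isMulCommutative.2 hA
  have h3 : zpowers y ≤ centralizer (zpowers y : Set G) :=
    le_centralizer_iff_isMulCommutative.2 inferInstance
  apply sup_le
  · rw [le_centralizer_iff]
    exact sup_le h2 h1
  · rw [le_centralizer_iff]
    exact sup_le (le_centralizer_iff.1 h1) h3

end Cfsg.Agent.Lib.Helper2Nilp
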