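import Cfsg.Agent.Lib.Helper2KWb
import Cfsg.Agent.Lib.Helper2Nilp
import Cfsg.Agent.S0558

set_option autoImplicit false

/-! Wielandt: products of nilpotent groups of coprime orders; analysis of a simple minimal
counterexample, part 2. -/

namespace Cfsg.Agent.Lib.Helper2KWc

open Subgroup
open scoped Pointwise
open Cfsg.Agent.Lib.Helper31Nilpotent Cfsg.Agent.Lib.Helper2Conj Cfsg.Agent.Lib.Helper2KWa
open Cfsg.Agent.Lib.Helper2KWb

variable {G : Type*} [Group G] {A B : Subgroup G}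

theorem exists_normal_part [Finite G] (E : Env G) (c : Fac A B) {T : Subgroup G} (hT : T ≠ ⊤)
    (hfac : ∀ t ∈ T, ∃ a ∈ T ⊓ A, ∃ b ∈ T ⊓ B, t = a * b) {s : ℕ} [Fact s.Prime]
    (hsB : s ∣ Nat.card B) (hST : pt B s ≤ T) {b : G} (hbB : b ∈ B) (hbo : orderOf b = s)
    (hbc : ∀ x ∈ B, x * b = b * x) :
    ∃ Y : Subgroup G, b ∈ Y ∧ Y ≤ pt B s ∧ T ≤ normalizer (Y : Set G) := by
  have hsol := E.solvable_of_fac c hT hfac
  obtain ⟨P, hP⟩ := c.symm.exists_sylow hsB
  have hFB : Cfsg.fittingOf T ≤ B := by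
    apply Cfsg.Agent.Lib.Helper30Bender.fittingOf_le_of_forall
    intro t ht D hDT hTD hD
    have : Fact t.Prime := ⟨ht⟩
    by_cases htA : t ∣ Nat.card A
    · have : D = ⊥ := E.no_normalized c.symm hsB htA P hD (hP ▸ hST.trans hTD)
      rw [this]
      exact bot_le
    · intro d hd
      obtain ⟨a, ha, b', hb', rfl⟩ := hfac d (hDT hd)
      suffices h : a = 1 by rw [h, one_mul]; exact hb'.2
      have hβ : b'⁻¹ ∈ normalizer (D : Set G) := hTD (T.inv_mem hb'.1)
      have h1 := mul_pow_mem hd hβ (orderOf b'⁻¹)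
      rw [pow_orderOf_eq_one, inv_one, mul_one, mul_inv_cancel_right] at h1
      obtain ⟨k, hk⟩ := hD ⟨_, h1⟩
      have hk' : (a ^ orderOf b'⁻¹) ^ t ^ k = 1 := congrArg Subtype.val hk
      rw [← pow_mul] at hk'
      have h2 : orderOf a ∣ orderOf b'⁻¹ * t ^ k := orderOf_dvd_of_pow_eq_one hk'
      have h3 : orderOf a ∣ Nat.card A := Subgroup.orderOf_dvd_natCard A ha.2
      have h4 : (Nat.card A).Coprime (orderOf b'⁻¹ * t ^ k) := by
        apply Nat.Coprime.mul_right
        · exact Nat.Coprime.of_dvd_right (Subgroup.orderOf_dvd_natCard B (B.inv_mem hb'.2)) c.cop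
        · exact Nat.Coprime.pow_right k (((Nat.Prime.coprime_iff_not_dvd ht).mpr htA).symm)
      exact orderOf_eq_one_iff.mp (Nat.eq_one_of_dvd_coprimes h4 h3 h2)
  have hbS : b ∈ pt B s := (mem_pt c.nB).mpr ⟨hbB, 1, by rw [hbo, pow_one]⟩
  have hbF : b ∈ Cfsg.fittingOf T := by
    apply Cfsg.Agent.Lib.Helper30Bender.inf_centralizer_fittingOf_le hsol
    refine Subgroup.mem_inf.mpr ⟨hST hbS, ?_⟩
    rw [mem_centralizer_iff]
    intro y hy
    exact hbc y (hFB hy)
  have nF := Cfsg.Agent.Lib.Helper30Bender.fittingOf_isNilpotent T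
  refine ⟨pt (Cfsg.fittingOf T) s, (mem_pt nF).mpr ⟨hbF, 1, by rw [hbo, pow_one]⟩,
    pt_mono c.nB hFB s, ?_⟩
  exact (Cfsg.Agent.Lib.Helper30Bender.le_normalizer_fittingOf T).trans
    (normalizer_le_normalizer_pt nF s)

theorem conj_mem_of_coprime [Finite G] (E : Env G) (c : Fac A B) {M : Subgroup G} (hBM : B ≤ M)
    (hM : M ≠ ⊤) {s : ℕ} (hs : s.Prime) (hsB : s ∣ Nat.card B) {m β : G} (hm : m ∈ M)
    (hβ : β ∈ B) (hcop : (orderOf β).Coprime s) : m * β * m⁻¹ ∈ B := by
  have : Fact s.Prime := ⟨hs⟩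
  obtain ⟨b, hbB, hbo, hbc⟩ := exists_central_prime c.nB hsB
  have hb1 : b ≠ 1 := by
    rintro rfl
    rw [orderOf_one] at hbo
    exact hs.one_lt.ne hbo
  obtain ⟨Y, hbY, hYS, hMY⟩ := exists_normal_part E c hM (c.dedekind' hBM) hsB
    ((pt_le B s).trans hBM) hbB hbo hbc
  have h1 : m⁻¹ * b * m⁻¹⁻¹ ∈ Y := (le_normalizer_iff.mp hMY) _ (M.inv_mem hm) b hbY
  rw [inv_inv] at h1
  have h2 := commute_of_mem_pt c.nB (hYS h1) hβ hcop
  apply E.centralizer_le c.symm hbB hbc hb1
  rw [Subgroup.mem_centralizer_singleton_iff]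
  calc m * β * m⁻¹ * b = m * (β * (m⁻¹ * b * m)) * m⁻¹ := by group
    _ = m * ((m⁻¹ * b * m) * β) * m⁻¹ := by rw [h2]
    _ = b * (m * β * m⁻¹) := by group

/-- a proper subgroup containing `B` normalizes `B` -/
theorem le_normalizer_of_ge [Finite G] (E : Env G) (c : Fac A B) {M : Subgroup G} (hBM : B ≤ M)
    (hM : M ≠ ⊤) : M ≤ normalizer (B : Set G) := by
  rw [le_normalizer_iff]
  intro m hm β hβ
  obtain ⟨s, hs, hsB⟩ := E.exists_prime_dvd_left c.symm
  obtain ⟨s', hs', hs'B, hne⟩ := E.exists_other_prime c.symm s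
  have : Fact s.Prime := ⟨hs⟩
  obtain ⟨u, v, hu, hv, rfl, ⟨k, hk⟩, hvc⟩ := Cfsg.Agent.Lib.Helper2Parts.exists_parts s β
  have huB : u ∈ B := (zpowers_le.mpr hβ) hu
  have hvB : v ∈ B := (zpowers_le.mpr hβ) hv
  have h1 : m * u * m⁻¹ ∈ B := conj_mem_of_coprime E c hBM hM hs' hs'B hm huB (by
    rw [hk]
    exact Nat.Coprime.pow_left k ((Nat.coprime_primes hs hs').mpr hne.symm))
  have h2 : m * v * m⁻¹ ∈ B := conj_mem_of_coprime E c hBM hM hs hsB hm hvB hvc
  have : m * (u * v) * m⁻¹ = (m * u * m⁻¹) * (m * v * m⁻¹) := by group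
  rw [this]
  exact B.mul_mem h1 h2

theorem normalizer_pt_le [Finite G] (E : Env G) (c : Fac A B) {s : ℕ} [Fact s.Prime]
    (hsB : s ∣ Nat.card B) : normalizer (pt B s : Set G) ≤ normalizer (B : Set G) := by
  apply le_normalizer_of_ge E c (le_normalizer_pt c.nB s)
  intro h
  exact pt_ne_bot hsB (E.pgroup_eq_bot (isPGroup_pt B s) h)

theorem centralizer_le_normalizer [Finite G] (E : Env G) (c : Fac A B) {y : G} {q : ℕ}
    (hq : q.Prime) (hyB : y ∈ B) (hyN : y ∈ normalizer (A : Set G)) (hyo : orderOf y = q) :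
    centralizer ({y} : Set G) ≤ normalizer (B : Set G) := by
  have : Fact q.Prime := ⟨hq⟩
  have hy1 : y ≠ 1 := by
    rintro rfl
    rw [orderOf_one] at hyo
    exact hq.one_lt.ne hyo
  have hT : centralizer ({y} : Set G) ≠ ⊤ := by
    intro h
    apply hy1
    apply E.central_eq_one
    intro g
    exact Subgroup.mem_centralizer_singleton_iff.mp (h ▸ Subgroup.mem_top g)
  have hfac : ∀ t ∈ centralizer ({y} : Set G), ∃ a ∈ centralizer ({y} : Set G) ⊓ A,
      ∃ b ∈ centralizer ({y} : Set G) ⊓ B, t = a * b := by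
    intro t ht
    obtain ⟨a, ha, b, hb, rfl⟩ := c.fac t
    have h1 : a * b * y = y * (a * b) := Subgroup.mem_centralizer_singleton_iff.mp ht
    have h2 : b * y * b⁻¹ * y⁻¹ = a⁻¹ * (y * a * y⁻¹) := by
      have : b * y = a⁻¹ * (y * (a * b)) := by rw [← h1]; group
      rw [this]
      group
    have h3 : b * y * b⁻¹ * y⁻¹ ∈ A ⊓ B := by
      refine Subgroup.mem_inf.mpr ⟨?_, ?_⟩
      · rw [h2]
        exact A.mul_mem (A.inv_mem ha) ((le_normalizer_iff.mp le_rfl) y hyN a ha)
      · exact B.mul_mem (B.mul_mem (B.mul_mem hb hyB) (B.inv_mem hb)) (B.inv_mem hyB)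
    rw [c.inf_eq_bot, Subgroup.mem_bot] at h3
    have h4 : b * y = y * b := by
      have : b * y = (b * y * b⁻¹ * y⁻¹) * (y * b) := by group
      rw [this, h3, one_mul]
    have h5 : a * y = y * a := by
      have : a * y = (a * b * y) * b⁻¹ * (b * y⁻¹ * b⁻¹ * y) := by group
      have h6 : b * y⁻¹ * b⁻¹ * y = 1 := by
        have : b * y⁻¹ * b⁻¹ * y = b * y⁻¹ * b⁻¹ * (y * b) * b⁻¹ := by group
        rw [this, ← h4]
        group
      rw [this, h6, h1]
      group
    exact ⟨a, Subgroup.mem_inf.mpr ⟨Subgroup.mem_centralizer_singleton_iff.mpr h5, ha⟩, b,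
      Subgroup.mem_inf.mpr ⟨Subgroup.mem_centralizer_singleton_iff.mpr h4, hb⟩, rfl⟩
  obtain ⟨s, hs, hsB, hsq⟩ := E.exists_other_prime c.symm q
  have : Fact s.Prime := ⟨hs⟩
  have hyQ : y ∈ pt B q := (mem_pt c.nB).mpr ⟨hyB, 1, by rw [hyo, pow_one]⟩
  have hST : pt B s ≤ centralizer ({y} : Set G) := by
    intro z hz
    rw [Subgroup.mem_centralizer_singleton_iff]
    exact commute_pt_pt c.nB hsq hz hyQ
  obtain ⟨b, hbB, hbo, hbc⟩ := exists_central_prime c.nB hsB
  have hb1 : b ≠ 1 := by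
    rintro rfl
    rw [orderOf_one] at hbo
    exact hs.one_lt.ne hbo
  obtain ⟨Y, hbY, hYS, hTY⟩ := exists_normal_part E c hT hfac hsB hST hbB hbo hbc
  have hYne : Y ≠ ⊥ := by
    intro h
    rw [h, Subgroup.mem_bot] at hbY
    exact hb1 hbY
  have hBY : B ≤ normalizer (Y : Set G) := le_normalizer_of_le_pt c.nB hYS (hST.trans hTY)
  have hNY : normalizer (Y : Set G) ≠ ⊤ := fun h =>
    hYne (E.pgroup_eq_bot ((isPGroup_pt B s).to_le hYS) h)
  exact hTY.trans (le_normalizer_of_ge E c hBY hNY)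

/-- ambient form of Wielandt's normal complement theorem -/
theorem wielandt_ambient [Finite G] {C H : Subgroup G} (hHC : H ≤ C) (hnil : Group.IsNilpotent H)
    {p r : ℕ} (hp : p.Prime) (hr : r.Prime) (hpr : p ≠ r) (hpH : p ∣ Nat.card H)
    (hrH : r ∣ Nat.card H)
    (hN : ∀ t : ℕ, t.Prime → t ∣ Nat.card H → ∀ n ∈ C,
      (∀ z ∈ H, (∃ k : ℕ, orderOf z = t ^ k) → n * z * n⁻¹ ∈ H) → n ∈ H) :
    ∃ K : Subgroup G, K ≤ C ∧ C ≤ normalizer (K : Set G) ∧
      Nat.card K * Nat.card H = Nat.card C ∧ (Nat.card K).Coprime (Nat.card H) := by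
  have nH' : Group.IsNilpotent (H.subgroupOf C) :=
    (Group.isNilpotent_congr (subgroupOfEquivOfLe hHC)).mpr hnil
  have hcard' : Nat.card (H.subgroupOf C) = Nat.card H :=
    Nat.card_congr (subgroupOfEquivOfLe hHC).toEquiv
  obtain ⟨N, hNn, hcompl⟩ := Cfsg.Agent.S0558.result (G := C) (H.subgroupOf C)
    (by
      intro t ht P hP
      have h1 : IsPGroup t (H.subgroupOf C) := hP ▸ P.isPGroup'
      have : Fact t.Prime := ⟨ht⟩
      obtain ⟨k, hk⟩ := IsPGroup.iff_card.mp h1
      rw [hcard'] at hk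
      have e1 := (Nat.prime_dvd_prime_iff_eq hp ht).mp (hp.dvd_of_dvd_pow (hk ▸ hpH))
      have e2 := (Nat.prime_dvd_prime_iff_eq hr ht).mp (hr.dvd_of_dvd_pow (hk ▸ hrH))
      exact hpr (e1.trans e2.symm))
    (by
      intro t ht htd P
      have : Fact t.Prime := ⟨ht⟩
      apply le_antisymm
      · intro n hn
        rw [mem_subgroupOf]
        apply hN t ht (hcard' ▸ htd) n n.2
        rintro z hz ⟨k, hk⟩
        have hzP : (⟨⟨z, hHC hz⟩, mem_subgroupOf.mpr hz⟩ : H.subgroupOf C) ∈ P :=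
          mem_sylow_of_orderOf P _ (k := k) (by
            rw [Subgroup.orderOf_mk, Subgroup.orderOf_mk, hk])
        have h2 : (⟨z, hHC hz⟩ : C) ∈ (P : Subgroup (H.subgroupOf C)).map (H.subgroupOf C).subtype :=
          ⟨_, hzP, rfl⟩
        have h3 := (le_normalizer_iff.mp le_rfl) n hn _ h2
        have h4 := (map_subtype_le _) h3
        exact mem_subgroupOf.mp h4
      · rw [le_normalizer_iff]
        rintro h hh _ ⟨y, hy, rfl⟩
        have hPn : (P : Subgroup (H.subgroupOf C)).Normal := inferInstance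
        exact ⟨⟨h, hh⟩ * y * ⟨h, hh⟩⁻¹, hPn.conj_mem y hy _, rfl⟩)
  have hcardK : Nat.card (N.map C.subtype) = Nat.card N :=
    card_map_of_injective C.subtype_injective
  have hmul : Nat.card (N.map C.subtype) * Nat.card H = Nat.card C := by
    rw [hcardK, ← hcard']
    exact hcompl.card_mul_card
  refine ⟨N.map C.subtype, map_subtype_le _, ?_, hmul, ?_⟩
  · rw [le_normalizer_iff]
    rintro x hx _ ⟨y, hy, rfl⟩
    exact ⟨⟨x, hx⟩ * y * ⟨x, hx⟩⁻¹, hNn.conj_mem y hy _, rfl⟩
  · apply Nat.Coprime.symm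
    apply Nat.coprime_of_dvd
    intro t ht htH htK
    have : Fact t.Prime := ⟨ht⟩
    obtain ⟨R, hR⟩ := ((isPGroup_pt H t).comap_subtype (K := C)).exists_le_sylow
    have hDS : pt H t ≤ (R : Subgroup C).map C.subtype := by
      intro z hz
      exact ⟨⟨z, hHC (pt_le H t hz)⟩, hR (mem_subgroupOf.mpr hz), rfl⟩
    have hSp : IsPGroup t ((R : Subgroup C).map C.subtype) := R.isPGroup'.map _
    have hEq : pt H t = (R : Subgroup C).map C.subtype := by
      by_contra hne
      obtain ⟨x, hxS, hxN, hxD⟩ := Cfsg.Agent.Lib.Helper2Nilp.exists_mem_normalizer_not_mem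
        hSp.isNilpotent (lt_of_le_of_ne hDS hne)
      apply hxD
      have hxH : x ∈ H := by
        apply hN t ht htH x (map_subtype_le _ hxS)
        intro z hz hk
        exact pt_le H t ((le_normalizer_iff.mp le_rfl) x hxN z ((mem_pt hnil).mpr ⟨hz, hk⟩))
      obtain ⟨k, hk⟩ := (IsPGroup.iff_orderOf.mp hSp) ⟨x, hxS⟩
      exact (mem_pt hnil).mpr ⟨hxH, k, by rw [← hk, Subgroup.orderOf_mk]⟩
    have h1 : Nat.card (pt H t) = t ^ (Nat.card C).factorization t := by
      rw [hEq, card_map_of_injective C.subtype_injective]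
      exact Sylow.card_eq_multiplicity R
    rw [card_pt] at h1
    have h2 := Nat.pow_right_injective ht.two_le h1
    rw [← hmul, Nat.factorization_mul Nat.card_pos.ne' Nat.card_pos.ne', Finsupp.add_apply] at h2
    have h3 : (Nat.card (N.map C.subtype)).factorization t = 0 := by omega
    rcases (Nat.factorization_eq_zero_iff _ _).mp h3 with h | h | h
    · exact h ht
    · exact h htK
    · exact Nat.card_pos.ne' h

theorem centralizer_le_normalizer_left [Finite G] (E : Env G) (c : Fac A B) {x : G} {p : ℕ}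
    (hp : p.Prime) (hxA : x ∈ A) (hxo : orderOf x = p) :
    centralizer ({x} : Set G) ≤ normalizer (A : Set G) := by
  have : Fact p.Prime := ⟨hp⟩
  by_cases hcase : ∃ y ∈ centralizer ({x} : Set G) ⊓ normalizer (A : Set G), ∃ q : ℕ, q.Prime ∧
      q ∣ Nat.card B ∧ orderOf y = q
  · obtain ⟨y, hy, q, hq, hqB, hyo⟩ := hcase
    have : Fact q.Prime := ⟨hq⟩
    have hyp : IsPGroup q (zpowers y) := IsPGroup.of_card (n := 1) (by
      rw [Nat.card_zpowers, hyo, pow_one])
    obtain ⟨Q, hQ⟩ := hyp.exists_le_sylow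
    obtain ⟨g, hg⟩ := c.symm.exists_conj_sylow hqB Q
    have hyB' : y ∈ MulAut.conj g • B := pt_le _ q (hg ▸ hQ (mem_zpowers y))
    have c' := c.conj_right g
    have h1 := centralizer_le_normalizer E c' hq hyB' hy.2 hyo
    have hxy : x ∈ centralizer ({y} : Set G) := by
      rw [Subgroup.mem_centralizer_singleton_iff]
      exact (Subgroup.mem_centralizer_singleton_iff.mp hy.1).symm
    exact centralizer_le_normalizer E c'.symm hp hxA (h1 hxy) hxo
  · push Not at hcase
    have hpA : p ∣ Nat.card A := hxo ▸ Subgroup.orderOf_dvd_natCard A hxA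
    have hCM : centralizer ({x} : Set G) ⊓ normalizer (A : Set G) ≤ A := by
      intro h hh
      obtain ⟨α, hα, β, hβ, rfl⟩ := c.fac h
      suffices hβ1 : β = 1 by rw [hβ1, mul_one]; exact hα
      have hcop : (orderOf (α * β)).Coprime (Nat.card B) := by
        apply Nat.coprime_of_dvd
        intro q hq hq1 hq2
        exact hcase _ (pow_mem hh (orderOf (α * β) / q)) q hq hq2
          (orderOf_pow_orderOf_div (orderOf_pos _).ne' hq1)
      have h1 := mul_pow_mem (A.inv_mem hα) hh.2 (orderOf (α * β))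
      rw [pow_orderOf_eq_one, inv_one, mul_one, inv_mul_cancel_left] at h1
      have h2 : β ^ orderOf (α * β) ∈ A ⊓ B := Subgroup.mem_inf.mpr ⟨h1, B.pow_mem hβ _⟩
      rw [c.inf_eq_bot, Subgroup.mem_bot] at h2
      exact orderOf_eq_one_iff.mp (Nat.eq_one_of_dvd_coprimes hcop
        (orderOf_dvd_of_pow_eq_one h2) (Subgroup.orderOf_dvd_natCard B hβ))
    obtain ⟨r, hr, hrA, hrp⟩ := E.exists_other_prime c p
    have : Fact r.Prime := ⟨hr⟩
    have nH := isNilpotent_of_le c.nA
      (inf_le_right : centralizer ({x} : Set G) ⊓ A ≤ A)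
    -- central elements of prime order lie in `H`
    have hcen : ∀ t : ℕ, t.Prime → t ∣ Nat.card A → ∃ a ∈ centralizer ({x} : Set G) ⊓ A,
        orderOf a = t ∧ (∀ z ∈ A, z * a = a * z) := by
      intro t ht htA
      have : Fact t.Prime := ⟨ht⟩
      obtain ⟨a, haA, hao, hac⟩ := exists_central_prime c.nA htA
      exact ⟨a, Subgroup.mem_inf.mpr ⟨Subgroup.mem_centralizer_singleton_iff.mpr
        (hac x hxA).symm, haA⟩, hao, hac⟩
    have hdvd : ∀ t : ℕ, t.Prime → t ∣ Nat.card A →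
        t ∣ Nat.card (centralizer ({x} : Set G) ⊓ A : Subgroup G) := by
      intro t ht htA
      obtain ⟨a, haH, hao, _⟩ := hcen t ht htA
      exact hao ▸ Subgroup.orderOf_dvd_natCard _ haH
    obtain ⟨K, hKC, hCK, hmul, hcop⟩ := wielandt_ambient
      (inf_le_left : centralizer ({x} : Set G) ⊓ A ≤ centralizer ({x} : Set G)) nH hp hr hrp.symm
      (hdvd p hp hpA) (hdvd r hr hrA) (by
        intro t ht htH n hn hz
        have htA : t ∣ Nat.card A := htH.trans (Subgroup.card_dvd_of_le inf_le_right)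
        have : Fact t.Prime := ⟨ht⟩
        obtain ⟨a, haH, hao, hac⟩ := hcen t ht htA
        have ha1 : a ≠ 1 := by
          rintro rfl
          rw [orderOf_one] at hao
          exact ht.one_lt.ne hao
        have ha' := hz a haH ⟨1, by rw [hao, pow_one]⟩
        obtain ⟨u, hu, huA, hut⟩ := E.exists_other_prime c t
        have : Fact u.Prime := ⟨hu⟩
        have ha't : n * a * n⁻¹ ∈ pt A t :=
          (mem_pt c.nA).mpr ⟨ha'.2, 1, by rw [orderOf_conj, hao, pow_one]⟩
        have hle : pt A u ≤ MulAut.conj n • pt A u := by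
          rw [← pt_conj c.nA]
          intro w hw
          obtain ⟨hwA, hwk⟩ := (mem_pt c.nA).mp hw
          refine (mem_pt (isNilpotent_conj c.nA n)).mpr ⟨?_, hwk⟩
          rw [mem_conj_smul]
          apply E.centralizer_le c haH.2 hac ha1
          rw [Subgroup.mem_centralizer_singleton_iff]
          have h1 := commute_pt_pt c.nA hut hw ha't
          calc n⁻¹ * w * n * a = n⁻¹ * (w * (n * a * n⁻¹)) * n := by group
            _ = n⁻¹ * ((n * a * n⁻¹) * w) * n := by rw [h1]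
            _ = a * (n⁻¹ * w * n) := by group
        have heq : MulAut.conj n • pt A u = pt A u :=
          (Subgroup.eq_of_le_of_card_ge hle (by rw [card_conj_smul])).symm
        have hnN : n ∈ normalizer (pt A u : Set G) := conj_smul_eq_iff_mem_normalizer.mp heq
        exact Subgroup.mem_inf.mpr ⟨hn, hCM (Subgroup.mem_inf.mpr
          ⟨hn, normalizer_pt_le E c.symm huA hnN⟩)⟩)
    have hKA : (Nat.card K).Coprime (Nat.card A) := by
      apply Nat.Coprime.symm
      apply Nat.coprime_of_dvd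
      intro t ht htA htK
      exact ht.one_lt.ne' (Nat.eq_one_of_dvd_coprimes hcop htK (hdvd t ht htA))
    obtain ⟨R, hR⟩ := c.exists_sylow hrA
    have hxP : x ∈ pt A p := (mem_pt c.nA).mpr ⟨hxA, 1, by rw [hxo, pow_one]⟩
    have hRC : (R : Subgroup G) ≤ centralizer ({x} : Set G) := by
      rw [hR]
      intro z hz
      rw [Subgroup.mem_centralizer_singleton_iff]
      exact commute_pt_pt c.nA hrp hz hxP
    have hK := E.no_normalized' c hrA R hKA (hRC.trans hCK)
    rw [hK, Subgroup.card_bot, one_mul] at hmul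
    have hEq : centralizer ({x} : Set G) ⊓ A = centralizer ({x} : Set G) :=
      Subgroup.eq_of_le_of_card_ge inf_le_left hmul.ge
    rw [← hEq]
    exact inf_le_right.trans le_normalizer

/-- `A` is a TI-subgroup -/
theorem ti [Finite G] (E : Env G) (c : Fac A B) {g x : G} (hx : x ∈ A)
    (hxg : x ∈ MulAut.conj g • A) (hx1 : x ≠ 1) : g ∈ normalizer (A : Set G) := by
  obtain ⟨p, hp, hpd, k, hk⟩ := exists_pow_prime_order hx1
  have : Fact p.Prime := ⟨hp⟩
  have hpA : p ∣ Nat.card A := hpd.trans (Subgroup.orderOf_dvd_natCard A hx)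
  obtain ⟨r, hr, hrA, hrp⟩ := E.exists_other_prime c p
  have : Fact r.Prime := ⟨hr⟩
  obtain ⟨P, hP⟩ := c.exists_sylow hrA
  have h1 : (P : Subgroup G) ≤ centralizer ({x ^ k} : Set G) := by
    rw [hP]
    intro z hz
    rw [Subgroup.mem_centralizer_singleton_iff]
    exact commute_pt_pt c.nA hrp hz ((mem_pt c.nA).mpr ⟨A.pow_mem hx k, 1, by rw [hk, pow_one]⟩)
  have h2 : ((g • P : Sylow r G) : Subgroup G) ≤ centralizer ({x ^ k} : Set G) := by
    rw [Sylow.coe_subgroup_smul, hP, ← pt_conj c.nA]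
    intro z hz
    rw [Subgroup.mem_centralizer_singleton_iff]
    exact commute_pt_pt (isNilpotent_conj c.nA g) hrp hz
      ((mem_pt (isNilpotent_conj c.nA g)).mpr ⟨pow_mem hxg k, 1, by rw [hk, pow_one]⟩)
  obtain ⟨h, hh, hhg⟩ := Cfsg.Agent.Lib.Helper2Sylow.exists_mul_mem_normalizer P _ g h1 h2
  have h3 : h * g ∈ normalizer (A : Set G) := normalizer_pt_le E c.symm hrA (hP ▸ hhg)
  have h4 : h ∈ normalizer (A : Set G) :=
    centralizer_le_normalizer_left E c hp (A.pow_mem hx k) hk hh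
  have : g = h⁻¹ * (h * g) := by group
  rw [this]
  exact mul_mem (inv_mem h4) h3

theorem card_le [Finite G] (E : Env G) (c : Fac A B) : Nat.card A ≤ Nat.card B := by
  have hN : normalizer (A : Set G) ≠ ⊤ := fun h =>
    E.left_ne_top c (E.eq_top_of_normalizer h (E.left_ne_bot c))
  obtain ⟨g, hg⟩ : ∃ g, g ∉ normalizer (A : Set G) := by
    by_contra hcon
    push Not at hcon
    exact hN (eq_top_iff.mpr fun g _ => hcon g)
  have hd : Disjoint A (MulAut.conj g • A) := by
    rw [disjoint_iff, eq_bot_iff]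
    intro x hx
    by_contra hx1
    exact hg (ti E c hx.1 hx.2 hx1)
  have h1 := Nat.card_le_card_of_injective _ (Subgroup.mul_injective_of_disjoint hd)
  rw [Nat.card_prod, card_conj_smul, c.card] at h1
  exact Nat.le_of_mul_le_mul_left h1 Nat.card_pos

theorem contradiction [Finite G] (E : Env G) (c : Fac A B) : False := by
  have h1 := card_le E c
  have h2 := card_le E c.symm
  have h3 : Nat.card A = Nat.card B := le_antisymm h1 h2
  have h4 := c.cop
  rw [← h3, Nat.coprime_self] at h4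
  exact E.left_ne_bot c ((Subgroup.card_eq_one).mp h4)

end Cfsg.Agent.Lib.Helper2KWc
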