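import Cfsg.Agent.Lib.Helper2KWc

set_option autoImplicit false

/-! Wielandt's theorem: a product of two nilpotent groups of coprime orders is solvable. -/

namespace Cfsg.Agent.Lib.Helper2KWd

open Subgroup
open scoped Pointwise
open Cfsg.Agent.Lib.Helper31Nilpotent Cfsg.Agent.Lib.Helper2Conj Cfsg.Agent.Lib.Helper2KWa
open Cfsg.Agent.Lib.Helper2KWb Cfsg.Agent.Lib.Helper2KWc

universe u

theorem isNilpotent_map {G G' : Type*} [Group G] [Group G'] {A : Subgroup G}
    (hA : Group.IsNilpotent A) (f : G →* G') : Group.IsNilpotent (A.map f) :=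
  Group.nilpotent_of_surjective (f.subgroupMap A) (f.subgroupMap_surjective A)

theorem isNilpotent_subgroupOf {G : Type*} [Group G] {A H : Subgroup G}
    (hA : Group.IsNilpotent A) (h : A ≤ H) : Group.IsNilpotent (A.subgroupOf H) :=
  (Group.isNilpotent_congr (subgroupOfEquivOfLe h)).mpr hA

theorem card_subgroupOf_of_le {G : Type*} [Group G] {A H : Subgroup G} (h : A ≤ H) :
    Nat.card (A.subgroupOf H) = Nat.card A :=
  Nat.card_congr (subgroupOfEquivOfLe h).toEquiv

theorem card_lt_of_ne_top {G : Type*} [Group G] [Finite G] {H : Subgroup G} (h : H ≠ ⊤) :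
    Nat.card H < Nat.card G := by
  refine lt_of_le_of_ne (Subgroup.card_le_card_group H) ?_
  intro he
  exact h (Subgroup.eq_top_of_card_eq H he)

theorem card_quotient_lt {G : Type*} [Group G] [Finite G] {N : Subgroup G} (h : N ≠ ⊥) :
    Nat.card (G ⧸ N) < Nat.card G := by
  rw [Subgroup.card_eq_card_quotient_mul_card_subgroup N]
  have h1 : 1 < Nat.card N := by
    rcases Nat.lt_or_ge 1 (Nat.card N) with h2 | h2
    · exact h2
    · exfalso
      apply h
      apply (Subgroup.card_eq_one).mp
      have := Nat.card_pos (α := N)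
      omega
  have h2 : 0 < Nat.card (G ⧸ N) := Nat.card_pos
  nlinarith

theorem solvable_aux : ∀ (n : ℕ) (G : Type u) [Group G] [Finite G], Nat.card G = n →
    ∀ A B : Subgroup G, Group.IsNilpotent A → Group.IsNilpotent B →
    (Nat.card A).Coprime (Nat.card B) → (∀ g : G, ∃ a ∈ A, ∃ b ∈ B, g = a * b) →
    Group.IsSolvable G := by
  intro n
  induction n using Nat.strong_induction_on with
  | _ n ih =>
  intro G _ _ hn A B hA hB hcop hfac
  by_contra hns
  have ihH : ∀ H A' B' : Subgroup G, H ≠ ⊤ → A' ≤ H → B' ≤ H → Group.IsNilpotent A' →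
      Group.IsNilpotent B' → (Nat.card A').Coprime (Nat.card B') →
      (∀ h ∈ H, ∃ a ∈ A', ∃ b ∈ B', h = a * b) → Group.IsSolvable H := by
    intro H A' B' hH hA' hB' nA' nB' hc hf
    refine ih _ (hn ▸ card_lt_of_ne_top hH) H rfl (A'.subgroupOf H) (B'.subgroupOf H)
      (isNilpotent_subgroupOf nA' hA') (isNilpotent_subgroupOf nB' hB') ?_ ?_
    · rw [card_subgroupOf_of_le hA', card_subgroupOf_of_le hB']
      exact hc
    · intro g
      obtain ⟨a, ha, b, hb, e⟩ := hf g g.2
      exact ⟨⟨a, hA' ha⟩, mem_subgroupOf.mpr ha, ⟨b, hB' hb⟩, mem_subgroupOf.mpr hb,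
        Subtype.ext e⟩
  have c : Fac A B := ⟨hA, hB, hcop, hfac⟩
  have hsimple : IsSimpleGroup G := by
    have hnt : Nontrivial G := by
      by_contra h
      rw [not_nontrivial_iff_subsingleton] at h
      exact hns inferInstance
    refine ⟨fun N hN => ?_⟩
    by_contra hcon
    push Not at hcon
    obtain ⟨hbot, htop⟩ := hcon
    apply hns
    have h1 : Group.IsSolvable N := by
      apply ihH N (N ⊓ A) (N ⊓ B) htop inf_le_left inf_le_left
        (isNilpotent_of_le hA inf_le_right) (isNilpotent_of_le hB inf_le_right) (c.coprime_inf N)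
      intro x hx
      obtain ⟨a, ha, b, hb, rfl⟩ := hfac x
      have hbN : b⁻¹ ∈ normalizer (N : Set G) := by
        rw [normalizer_eq_top_iff.mpr hN]
        exact mem_top _
      have h2 := mul_pow_mem hx hbN (orderOf b⁻¹)
      rw [pow_orderOf_eq_one, inv_one, mul_one, mul_inv_cancel_right] at h2
      have haN : a ∈ N := by
        apply mem_of_coprime_pow N a (a := orderOf b⁻¹) (b := orderOf a) _ h2
          (by rw [pow_orderOf_eq_one]; exact N.one_mem)
        exact (Nat.Coprime.of_dvd (Subgroup.orderOf_dvd_natCard A ha)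
          (Subgroup.orderOf_dvd_natCard B (B.inv_mem hb)) hcop).symm
      have hbN' : b ∈ N := by
        have := N.mul_mem (N.inv_mem haN) hx
        simpa using this
      exact ⟨a, ⟨haN, ha⟩, b, ⟨hbN', hb⟩, rfl⟩
    have h2 : Group.IsSolvable (G ⧸ N) := by
      refine ih _ (hn ▸ card_quotient_lt hbot) (G ⧸ N) rfl (A.map (QuotientGroup.mk' N))
        (B.map (QuotientGroup.mk' N)) (isNilpotent_map hA _) (isNilpotent_map hB _) ?_ ?_
      · exact Nat.Coprime.of_dvd (Subgroup.card_map_dvd _ _) (Subgroup.card_map_dvd _ _) hcop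
      · intro g
        obtain ⟨g, rfl⟩ := QuotientGroup.mk'_surjective N g
        obtain ⟨a, ha, b, hb, rfl⟩ := hfac g
        exact ⟨_, ⟨a, ha, rfl⟩, _, ⟨b, hb, rfl⟩, map_mul _ _ _⟩
    exact Group.isSolvable_of_ker_le_range N.subtype (QuotientGroup.mk' N) (by simp)
  exact contradiction ⟨hsimple, hns, ihH⟩ c

/-- **Wielandt.** -/
theorem wielandt {G : Type u} [Group G] [Finite G] (A B : Subgroup G) (hA : Group.IsNilpotent A)
    (hB : Group.IsNilpotent B) (hcop : (Nat.card A).Coprime (Nat.card B))
    (hAB : ∀ g : G, ∃ a ∈ A, ∃ b ∈ B, g = a * b) : Group.IsSolvable G :=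
  solvable_aux _ G rfl A B hA hB hcop hAB

theorem hall_sylow {G : Type u} [Group G] [Finite G] {A B : Subgroup G} (c : Fac A B) {p : ℕ}
    [hp : Fact p.Prime] (P : Sylow p A) :
    (Nat.card ((P : Subgroup A).map A.subtype)).Coprime ((P : Subgroup A).map A.subtype).index := by
  have h1 : Nat.card ((P : Subgroup A).map A.subtype) = p ^ (Nat.card A).factorization p := by
    rw [card_map_of_injective A.subtype_injective]
    exact Sylow.card_eq_multiplicity P
  by_cases hpA : p ∣ Nat.card A
  · have h2 : Nat.card ((P : Subgroup A).map A.subtype) = p ^ (Nat.card G).factorization p := by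
      rw [h1, c.card, Nat.factorization_mul Nat.card_pos.ne' Nat.card_pos.ne', Finsupp.add_apply,
        Nat.factorization_eq_zero_of_not_dvd (c.not_dvd_right hp.out hpA), add_zero]
    exact (Sylow.ofCard _ h2).card_coprime_index
  · rw [h1, Nat.factorization_eq_zero_of_not_dvd hpA, pow_zero]
    exact Nat.coprime_one_left _

end Cfsg.Agent.Lib.Helper2KWd
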