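import Cfsg.Agent.Lib.Helper2KWd
import Cfsg.Agent.Lib.Helper52Subnormal
import Cfsg.Agent.Lib.Helper52PReduced
import Cfsg.Agent.S0566

set_option autoImplicit false

/-! Kegel: two `p`-subgroups `X`, `Y` such that `X` permutes with all conjugates of `Y`
satisfy `[X, Y] ≤ O_p(G)`. -/

namespace Cfsg.Agent.Lib.Helper2KWe

open Subgroup
open scoped Pointwise commutatorElement
open Cfsg.Agent.Lib.Helper2Conj Cfsg.Agent.Lib.Helper2KWa Cfsg.Agent.Lib.Helper2KWd
open Cfsg.Agent.Lib.Helper52Basic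

universe u

section Perm

variable {G : Type*} [Group G]

/-- `X` permutes with every conjugate of `Y` -/
def Perm (X Y : Subgroup G) : Prop :=
  ∀ g : G, ∀ x ∈ X, ∀ y ∈ Y, ∃ x' ∈ X, ∃ y' ∈ Y, g * y * g⁻¹ * x = x' * (g * y' * g⁻¹)

theorem exists_prod {H K : Subgroup G}
    (h : ∀ k ∈ K, ∀ x ∈ H, ∃ x' ∈ H, ∃ k' ∈ K, k * x = x' * k') :
    ∃ W : Subgroup G, (W : Set G) = (H : Set G) * (K : Set G) := by
  refine ⟨{ carrier := (H : Set G) * (K : Set G)
            mul_mem' := ?_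
            one_mem' := ?_
            inv_mem' := ?_ }, rfl⟩
  · rintro _ _ ⟨x1, hx1, k1, hk1, rfl⟩ ⟨x2, hx2, k2, hk2, rfl⟩
    obtain ⟨x', hx', k', hk', e⟩ := h k1 hk1 x2 hx2
    refine ⟨x1 * x', H.mul_mem hx1 hx', k' * k2, K.mul_mem hk' hk2, ?_⟩
    simp only
    calc x1 * x' * (k' * k2) = x1 * (x' * k') * k2 := by group
      _ = x1 * (k1 * x2) * k2 := by rw [e]
      _ = x1 * k1 * (x2 * k2) := by group
  · exact ⟨1, H.one_mem, 1, K.one_mem, by simp⟩
  · rintro _ ⟨x1, hx1, k1, hk1, rfl⟩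
    obtain ⟨x', hx', k', hk', e⟩ := h k1⁻¹ (K.inv_mem hk1) x1⁻¹ (H.inv_mem hx1)
    exact ⟨x', hx', k', hk', by simp only; rw [← e, mul_inv_rev]⟩

theorem Perm.exists_prod {X Y : Subgroup G} (h : Perm X Y) (g : G) :
    ∃ W : Subgroup G, (W : Set G) = (X : Set G) * ((MulAut.conj g • Y : Subgroup G) : Set G) := by
  apply Helper2KWe.exists_prod
  intro k hk x hx
  rw [mem_conj_smul] at hk
  obtain ⟨x', hx', y', hy', e⟩ := h g x hx _ hk
  refine ⟨x', hx', g * y' * g⁻¹, conj_mem_conj_smul hy', ?_⟩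
  rw [← e]
  group

theorem Perm.symm {X Y : Subgroup G} (h : Perm X Y) : Perm Y X := by
  intro g y hy x hx
  obtain ⟨x', hx', y', hy', e⟩ := h g⁻¹ x⁻¹ (X.inv_mem hx) y⁻¹ (Y.inv_mem hy)
  refine ⟨y'⁻¹, Y.inv_mem hy', x'⁻¹, X.inv_mem hx', ?_⟩
  have e2 : g * x * g⁻¹ * y = g * (g⁻¹ * y⁻¹ * g⁻¹⁻¹ * x⁻¹)⁻¹ * g⁻¹ := by group
  rw [e2, e]
  group

theorem Perm.subgroupOf {X Y : Subgroup G} (h : Perm X Y) {H : Subgroup G} (hX : X ≤ H)
    (hY : Y ≤ H) : Perm (X.subgroupOf H) (Y.subgroupOf H) := by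
  intro g x hx y hy
  obtain ⟨x', hx', y', hy', e⟩ := h g x (mem_subgroupOf.mp hx) y (mem_subgroupOf.mp hy)
  exact ⟨⟨x', hX hx'⟩, mem_subgroupOf.mpr hx', ⟨y', hY hy'⟩, mem_subgroupOf.mpr hy',
    Subtype.ext e⟩

theorem Perm.map {G' : Type*} [Group G'] {X Y : Subgroup G} (h : Perm X Y) (f : G →* G')
    (hf : Function.Surjective f) : Perm (X.map f) (Y.map f) := by
  rintro g _ ⟨x, hx, rfl⟩ _ ⟨y, hy, rfl⟩
  obtain ⟨g, rfl⟩ := hf g
  obtain ⟨x', hx', y', hy', e⟩ := h g x hx y hy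
  refine ⟨f x', ⟨x', hx', rfl⟩, f y', ⟨y', hy', rfl⟩, ?_⟩
  have := congrArg f e
  simpa only [map_mul, map_inv] using this

theorem Perm.inf_normal {X Y N : Subgroup G} (h : Perm X Y) (hN : N.Normal) (hX : X ≤ N) :
    Perm X (Y ⊓ N) := by
  intro g x hx y hy
  obtain ⟨x', hx', y', hy', e⟩ := h g x hx y hy.1
  refine ⟨x', hx', y', ⟨hy', ?_⟩, e⟩
  have h1 : g * y' * g⁻¹ ∈ N := by
    have : g * y' * g⁻¹ = x'⁻¹ * (g * y * g⁻¹ * x) := by rw [e]; group
    rw [this]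
    exact N.mul_mem (N.inv_mem (hX hx')) (N.mul_mem (hN.conj_mem y hy.2 g) (hX hx))
  have h2 := hN.conj_mem _ h1 g⁻¹
  have h3 : g⁻¹ * (g * y' * g⁻¹) * g⁻¹⁻¹ = y' := by group
  rwa [h3] at h2

theorem Perm.conj_right {X Y : Subgroup G} (h : Perm X Y) (g0 : G) :
    Perm X (MulAut.conj g0 • Y) := by
  intro g x hx y hy
  rw [mem_conj_smul] at hy
  obtain ⟨x', hx', y', hy', e⟩ := h (g * g0) x hx _ hy
  refine ⟨x', hx', g0 * y' * g0⁻¹, conj_mem_conj_smul hy', ?_⟩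
  have e1 : g * y * g⁻¹ * x = g * g0 * (g0⁻¹ * y * g0) * (g * g0)⁻¹ * x := by group
  rw [e1, e]
  group

theorem isPGroup_of_prod [Finite G] {p : ℕ} [hp : Fact p.Prime] {H K W : Subgroup G}
    (hH : IsPGroup p H) (hK : IsPGroup p K) (hW : (W : Set G) = (H : Set G) * (K : Set G)) :
    IsPGroup p W := by
  obtain ⟨a, ha⟩ := IsPGroup.iff_card.mp hH
  obtain ⟨b, hb⟩ := IsPGroup.iff_card.mp hK
  have h1 := Cfsg.Agent.Lib.Helper12Card.card_mul_set_mul_card_inf H K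
  rw [← hW, ha, hb, ← pow_add] at h1
  have h2 : Nat.card W ∣ p ^ (a + b) := ⟨_, h1.symm⟩
  obtain ⟨c, _, hc⟩ := (Nat.dvd_prime_pow hp.out).mp h2
  exact IsPGroup.of_card hc

end Perm

section KL

variable {p : ℕ} [hp : Fact p.Prime]

/-- the statement proved by induction -/
def KL (p : ℕ) (G : Type u) [Group G] : Prop :=
  ∀ X Y : Subgroup G, IsPGroup p X → IsPGroup p Y → Perm X Y →
    ∀ x ∈ X, ∀ y ∈ Y, ⁅x, y⁆ ∈ Cfsg.pCore p G

theorem coe_eq_one_of_mem_pCore {G : Type u} [Group G] [Finite G] (hO : Cfsg.pCore p G = ⊥)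
    {N : Subgroup G} (hN : N.Normal) {z : N} (hz : z ∈ Cfsg.pCore p N) : (z : G) = 1 := by
  have := Cfsg.Agent.Lib.Helper52Subnormal.map_pCore_le_pCore_of_subnormal (p := p) hN.isSubnormal
  rw [hO] at this
  exact Subgroup.mem_bot.mp (this ⟨z, hz, rfl⟩)

omit hp in
theorem isPGroup_conj {G : Type u} [Group G] {K : Subgroup G} (hK : IsPGroup p K) (g : G) :
    IsPGroup p (MulAut.conj g • K : Subgroup G) :=
  hK.of_equiv (Subgroup.equivSMul (MulAut.conj g) K)

theorem half {G : Type u} [Group G] [Finite G] (ih : ∀ H : Subgroup G, H ≠ ⊤ → KL p H)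
    (hO : Cfsg.pCore p G = ⊥) {X Y : Subgroup G} (hX : IsPGroup p X) (hY : IsPGroup p Y)
    (hperm : Perm X Y) (hN : normalClosure (X : Set G) ≠ ⊤) :
    (∀ x ∈ X, ∀ y ∈ Y, ⁅x, y⁆ = 1) ∨ (Y ⊓ normalClosure (X : Set G) = ⊥ ∧
      ∀ g : G, ∀ y ∈ Y, g * y * g⁻¹ ∈ normalizer (X : Set G)) := by
  obtain ⟨N, hNdef⟩ : ∃ N, N = normalClosure (X : Set G) := ⟨_, rfl⟩
  rw [← hNdef] at hN ⊢
  have hNn : N.Normal := hNdef ▸ normalClosure_normal
  have hXN : X ≤ N := hNdef ▸ le_normalClosure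
  by_cases hH : N ⊔ Y = ⊤
  · right
    have claim1 : ∀ g : G, ∀ x ∈ X, ∀ y ∈ Y ⊓ N, ⁅x, g * y * g⁻¹⁆ = 1 := by
      intro g x hx y hy
      have hle : MulAut.conj g • (Y ⊓ N) ≤ N := by
        intro z hz
        rw [mem_conj_smul] at hz
        have := hNn.conj_mem _ hz.2 g
        simpa [mul_assoc] using this
      have hp' : Perm (X.subgroupOf N) ((MulAut.conj g • (Y ⊓ N)).subgroupOf N) :=
        ((hperm.inf_normal hNn hXN).conj_right g).subgroupOf hXN hle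
      have := ih N hN _ _ hX.comap_subtype
        (isPGroup_conj (hY.to_le inf_le_left) g).comap_subtype hp' ⟨x, hXN hx⟩
        (mem_subgroupOf.mpr hx) ⟨g * y * g⁻¹, hle (conj_mem_conj_smul hy)⟩
        (mem_subgroupOf.mpr (conj_mem_conj_smul hy))
      exact coe_eq_one_of_mem_pCore hO hNn this
    have claim2 : ∀ y ∈ Y ⊓ N, ∀ n ∈ N, n * y = y * n := by
      intro y hy
      have : N ≤ centralizer ({y} : Set G) := by
        rw [hNdef, normalClosure, closure_le]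
        intro z hz
        obtain ⟨x, hx, hc⟩ := Group.mem_conjugatesOfSet_iff.mp hz
        obtain ⟨g, rfl⟩ := isConj_iff.mp hc
        have h1 := commutatorElement_eq_one_iff_mul_comm.mp (claim1 g⁻¹ x hx y hy)
        rw [SetLike.mem_coe, mem_centralizer_singleton_iff]
        calc g * x * g⁻¹ * y = g * (x * (g⁻¹ * y * g⁻¹⁻¹)) * g⁻¹ := by group
          _ = g * ((g⁻¹ * y * g⁻¹⁻¹) * x) * g⁻¹ := by rw [h1]
          _ = y * (g * x * g⁻¹) := by group
      intro n hn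
      exact mem_centralizer_singleton_iff.mp (this hn)
    have claim3 : Y ⊓ N = ⊥ := by
      rw [eq_bot_iff]
      intro y hy
      have hD : ((Y ⊓ N).subgroupOf N).Normal := by
        refine ⟨fun d hd n => ?_⟩
        have : n * d * n⁻¹ = d := by
          apply Subtype.ext
          have := claim2 d (mem_subgroupOf.mp hd) n n.2
          simp only [Subgroup.coe_mul, Subgroup.coe_inv]
          rw [this, mul_inv_cancel_right]
        rw [this]
        exact hd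
      have h1 := le_pCore hD (hY.to_le inf_le_left).comap_subtype
      have h2 : (⟨y, hy.2⟩ : N) ∈ Cfsg.pCore p N := h1 (mem_subgroupOf.mpr hy)
      exact Subgroup.mem_bot.mpr (coe_eq_one_of_mem_pCore hO hNn h2)
    refine ⟨claim3, ?_⟩
    intro g y hy
    apply mem_normalizer_of_forall
    intro x hx
    obtain ⟨x', hx', y', hy', e⟩ := hperm g x hx y hy
    have e1 : g * y * g⁻¹ * x * (g * y * g⁻¹)⁻¹ = x' * (g * (y' * y⁻¹) * g⁻¹) := by
      rw [e]
      group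
    have h1 : g * y * g⁻¹ * x * (g * y * g⁻¹)⁻¹ ∈ N := hNn.conj_mem x (hXN hx) _
    have h2 : g * (y' * y⁻¹) * g⁻¹ ∈ N := by
      have : g * (y' * y⁻¹) * g⁻¹ = x'⁻¹ * (g * y * g⁻¹ * x * (g * y * g⁻¹)⁻¹) := by
        rw [e1]
        group
      rw [this]
      exact N.mul_mem (N.inv_mem (hXN hx')) h1
    have h3 : y' * y⁻¹ ∈ N := by
      have := hNn.conj_mem _ h2 g⁻¹
      have h4 : g⁻¹ * (g * (y' * y⁻¹) * g⁻¹) * g⁻¹⁻¹ = y' * y⁻¹ := by group
      rwa [h4] at this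
    have h4 : y' * y⁻¹ ∈ Y ⊓ N := ⟨Y.mul_mem hy' (Y.inv_mem hy), h3⟩
    rw [claim3, Subgroup.mem_bot] at h4
    rw [e1, h4]
    simpa using hx'
  · left
    intro x hx y hy
    have hXH : X ≤ N ⊔ Y := hXN.trans le_sup_left
    have hYH : Y ≤ N ⊔ Y := le_sup_right
    have h1 := ih (N ⊔ Y) hH _ _ hX.comap_subtype hY.comap_subtype (hperm.subgroupOf hXH hYH)
      ⟨x, hXH hx⟩ (mem_subgroupOf.mpr hx) ⟨y, hYH hy⟩ (mem_subgroupOf.mpr hy)
    have hcN : ⁅x, y⁆ ∈ N := by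
      rw [commutatorElement_def]
      have : x * y * x⁻¹ * y⁻¹ = x * (y * x⁻¹ * y⁻¹) := by group
      rw [this]
      exact N.mul_mem (hXN hx) (hNn.conj_mem _ (N.inv_mem (hXN hx)) y)
    have hD : (((Cfsg.pCore p ↥(N ⊔ Y)).map (N ⊔ Y).subtype).subgroupOf N).Normal := by
      refine ⟨fun d hd n => ?_⟩
      obtain ⟨e, he, hed⟩ := mem_subgroupOf.mp hd
      rw [mem_subgroupOf]
      have hn : (n : G) ∈ N ⊔ Y := mem_sup_left n.2
      refine ⟨⟨n, hn⟩ * e * ⟨n, hn⟩⁻¹, (Cfsg.pCore_normal p _).conj_mem e he _, ?_⟩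
      simp only [Subgroup.coe_mul, Subgroup.coe_inv, Subgroup.subtype_apply] at hed ⊢
      rw [hed]
    have h2 := le_pCore hD ((pCore_isPGroup (p := p)).map (N ⊔ Y).subtype).comap_subtype
    have h3 : (⟨⁅x, y⁆, hcN⟩ : N) ∈ Cfsg.pCore p N := h2 (mem_subgroupOf.mpr ⟨_, h1, rfl⟩)
    exact coe_eq_one_of_mem_pCore hO hNn h3

theorem fin {G : Type u} [Group G] [Finite G] (ih : ∀ H : Subgroup G, H ≠ ⊤ → KL p H)
    (hO : Cfsg.pCore p G = ⊥) {X Y : Subgroup G} (hX : IsPGroup p X) (hY : IsPGroup p Y)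
    (hperm : Perm X Y) (hN : normalClosure (X : Set G) ≠ ⊤) :
    ∀ x ∈ X, ∀ y ∈ Y, ⁅x, y⁆ = 1 := by
  rcases half ih hO hX hY hperm hN with h | ⟨h1, h2⟩
  · exact h
  · by_cases hY' : normalClosure (Y : Set G) = ⊤
    · have hn : normalizer (X : Set G) = ⊤ := by
        rw [eq_top_iff, ← hY', normalClosure, closure_le]
        intro z hz
        obtain ⟨y, hy, hc⟩ := Group.mem_conjugatesOfSet_iff.mp hz
        obtain ⟨g, rfl⟩ := isConj_iff.mp hc
        exact h2 g y hy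
      have hXn : X.Normal := normalizer_eq_top_iff.mp hn
      have hXb := le_pCore hXn hX
      rw [hO] at hXb
      intro x hx y _
      rw [Subgroup.mem_bot.mp (hXb hx)]
      simp
    · rcases half ih hO hY hX hperm.symm hY' with h | ⟨_, h4⟩
      · intro x hx y hy
        rw [← commutatorElement_inv, h y hy x hx, inv_one]
      · intro x hx y hy
        have hx' : x ∈ normalizer (Y : Set G) := by simpa using h4 1 x hx
        have hy' : y ∈ normalizer (X : Set G) := by simpa using h2 1 y hy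
        have hm : ⁅x, y⁆ ∈ Y ⊓ normalClosure (X : Set G) := by
          refine ⟨?_, le_normalClosure ?_⟩
          · rw [commutatorElement_def]
            exact Y.mul_mem ((le_normalizer_iff.mp le_rfl) x hx' y hy) (Y.inv_mem hy)
          · rw [commutatorElement_def]
            have : x * y * x⁻¹ * y⁻¹ = x * (y * x⁻¹ * y⁻¹) := by group
            rw [this]
            exact X.mul_mem hx ((le_normalizer_iff.mp le_rfl) y hy' _ (X.inv_mem hx))
        rw [h1] at hm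
        exact Subgroup.mem_bot.mp hm

theorem kl_aux : ∀ (n : ℕ) (G : Type u) [Group G] [Finite G], Nat.card G = n → KL p G := by
  intro n
  induction n using Nat.strong_induction_on with
  | _ n ih =>
  intro G _ _ hn X Y hX hY hperm x hx y hy
  have ihH : ∀ H : Subgroup G, H ≠ ⊤ → KL p H := fun H hH =>
    ih _ (hn ▸ card_lt_of_ne_top hH) H rfl
  by_cases hO : Cfsg.pCore p G = ⊥
  · rw [hO, Subgroup.mem_bot]
    by_cases hXb : X = ⊥
    · rw [hXb, Subgroup.mem_bot] at hx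
      rw [hx]
      simp
    by_cases hYb : Y = ⊥
    · rw [hYb, Subgroup.mem_bot] at hy
      rw [hy]
      simp
    obtain ⟨N0, hN0n, hN0t, hle⟩ := Cfsg.Agent.S0566.result X Y hXb hYb (by
      intro g
      obtain ⟨W, hW⟩ := hperm.exists_prod g
      refine ⟨W, ?_, hW⟩
      rintro rfl
      have h1 : IsPGroup p (⊤ : Subgroup G) := isPGroup_of_prod hX (isPGroup_conj hY g) hW
      have h2 := le_pCore (inferInstance : (⊤ : Subgroup G).Normal) h1
      rw [hO] at h2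
      exact hXb (eq_bot_iff.mpr (le_top.trans h2)))
    rcases hle with hle | hle
    · have hN : normalClosure (X : Set G) ≠ ⊤ := by
        intro h
        apply hN0t
        rw [eq_top_iff, ← h]
        exact normalClosure_le_normal hle
      exact fin ihH hO hX hY hperm hN x hx y hy
    · have hN : normalClosure (Y : Set G) ≠ ⊤ := by
        intro h
        apply hN0t
        rw [eq_top_iff, ← h]
        exact normalClosure_le_normal hle
      rw [← commutatorElement_inv, fin ihH hO hY hX hperm.symm hN y hy x hx, inv_one]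
  · have hOn : (Cfsg.pCore p G).Normal := Cfsg.pCore_normal p G
    have h1 := ih _ (hn ▸ card_quotient_lt hO) (G ⧸ Cfsg.pCore p G) rfl
      (X.map (QuotientGroup.mk' _)) (Y.map (QuotientGroup.mk' _)) (hX.map _) (hY.map _)
      (hperm.map _ (QuotientGroup.mk'_surjective _)) _ ⟨x, hx, rfl⟩ _ ⟨y, hy, rfl⟩
    have h2 : Cfsg.pCore p (G ⧸ Cfsg.pCore p G) = ⊥ := by
      rw [Cfsg.Agent.Lib.Helper52PReduced.pCore_quotient_eq_bot_iff]
      intro D hD hDp
      apply le_pCore hD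
      intro d
      obtain ⟨k, hk⟩ := hDp d d.2
      obtain ⟨j, hj⟩ := (pCore_isPGroup (p := p) (G := G)) ⟨_, hk⟩
      refine ⟨k + j, Subtype.ext ?_⟩
      have := congrArg Subtype.val hj
      simp only [Subgroup.coe_pow, Subgroup.coe_one] at this ⊢
      rw [pow_add, pow_mul, this]
    rw [h2, Subgroup.mem_bot, ← map_commutatorElement] at h1
    exact (QuotientGroup.eq_one_iff _).mp h1

/-- **Kegel.** -/
theorem kegel {G : Type u} [Group G] [Finite G] {X Y : Subgroup G} (hX : IsPGroup p X)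
    (hY : IsPGroup p Y) (hperm : Perm X Y) : ∀ x ∈ X, ∀ y ∈ Y, ⁅x, y⁆ ∈ Cfsg.pCore p G :=
  kl_aux _ G rfl X Y hX hY hperm

end KL

end Cfsg.Agent.Lib.Helper2KWe
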