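import Cfsg.Agent.Lib.Helper2KWe
import Cfsg.Agent.S0560

set_option autoImplicit false

/-! The Kegel--Wielandt theorem: a product of two nilpotent groups is solvable. -/

namespace Cfsg.Agent.Lib.Helper2KWf

open Subgroup
open scoped Pointwise commutatorElement
open Cfsg.Agent.Lib.Helper2Conj Cfsg.Agent.Lib.Helper2KWa Cfsg.Agent.Lib.Helper2KWb
open Cfsg.Agent.Lib.Helper2KWd Cfsg.Agent.Lib.Helper2KWe
open Cfsg.Agent.Lib.Helper52Basic

universe u

theorem map_sylow_eq_pt {G : Type u} [Group G] [Finite G] {A : Subgroup G}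
    (hA : Group.IsNilpotent A) {p : ℕ} [Fact p.Prime] (P : Sylow p A) :
    (P : Subgroup A).map A.subtype = pt A p := by
  have : Subsingleton (Sylow p A) := (Sylow.unique_of_normal P inferInstance).instSubsingleton
  unfold pt
  rw [Subsingleton.elim P default]

theorem perm_pt {G : Type u} [Group G] [Finite G] {A B : Subgroup G} (hA : Group.IsNilpotent A)
    (hB : Group.IsNilpotent B) (hfac : ∀ g : G, ∃ a ∈ A, ∃ b ∈ B, g = a * b) (p : ℕ)
    [Fact p.Prime] : Perm (pt A p) (pt B p) := by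
  obtain ⟨P, Q, R, hR⟩ := Cfsg.Agent.S0560.result A B hfac p
  rw [map_sylow_eq_pt hA, map_sylow_eq_pt hB] at hR
  have hXR : ∀ x ∈ pt A p, x ∈ (R : Subgroup G) := by
    intro x hx
    have : x ∈ ((R : Subgroup G) : Set G) := by
      rw [hR]
      exact Set.mem_mul.mpr ⟨x, hx, 1, one_mem _, mul_one _⟩
    exact this
  have hYR : ∀ y ∈ pt B p, y ∈ (R : Subgroup G) := by
    intro y hy
    have : y ∈ ((R : Subgroup G) : Set G) := by
      rw [hR]
      exact Set.mem_mul.mpr ⟨1, one_mem _, y, hy, one_mul _⟩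
    exact this
  intro g x hx y hy
  obtain ⟨α, hα, β, hβ, rfl⟩ := hfac g
  have hy1 : β * y * β⁻¹ ∈ pt B p := (le_normalizer_iff.mp (le_normalizer_pt hB p)) β hβ y hy
  have hx1 : α⁻¹ * x * α⁻¹⁻¹ ∈ pt A p :=
    (le_normalizer_iff.mp (le_normalizer_pt hA p)) _ (A.inv_mem hα) x hx
  have hmem : (β * y * β⁻¹) * (α⁻¹ * x * α⁻¹⁻¹) ∈ ((R : Subgroup G) : Set G) :=
    (R : Subgroup G).mul_mem (hYR _ hy1) (hXR _ hx1)
  rw [hR] at hmem
  obtain ⟨x2, hx2, y2, hy2, e⟩ := Set.mem_mul.mp hmem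
  refine ⟨α * x2 * α⁻¹, (le_normalizer_iff.mp (le_normalizer_pt hA p)) α hα x2 hx2,
    β⁻¹ * y2 * β⁻¹⁻¹, (le_normalizer_iff.mp (le_normalizer_pt hB p)) _ (B.inv_mem hβ) y2 hy2, ?_⟩
  calc α * β * y * (α * β)⁻¹ * x = α * ((β * y * β⁻¹) * (α⁻¹ * x * α⁻¹⁻¹)) * α⁻¹ := by group
    _ = α * (x2 * y2) * α⁻¹ := by rw [e]
    _ = α * x2 * α⁻¹ * (α * β * (β⁻¹ * y2 * β⁻¹⁻¹) * (α * β)⁻¹) := by group

theorem kw_aux : ∀ (n : ℕ) (G : Type u) [Group G] [Finite G], Nat.card G = n →
    ∀ A B : Subgroup G, Group.IsNilpotent A → Group.IsNilpotent B →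
    (∀ g : G, ∃ a ∈ A, ∃ b ∈ B, g = a * b) → Group.IsSolvable G := by
  intro n
  induction n using Nat.strong_induction_on with
  | _ n ih =>
  intro G _ _ hn A B hA hB hfac
  by_contra hns
  have ha : ∀ N : Subgroup G, N.Normal → Group.IsSolvable N → N = ⊥ := by
    intro N hN hsol
    by_contra hbot
    apply hns
    have h2 : Group.IsSolvable (G ⧸ N) := by
      refine ih _ (hn ▸ card_quotient_lt hbot) (G ⧸ N) rfl (A.map (QuotientGroup.mk' N))
        (B.map (QuotientGroup.mk' N)) (isNilpotent_map hA _) (isNilpotent_map hB _) ?_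
      intro g
      obtain ⟨g, rfl⟩ := QuotientGroup.mk'_surjective N g
      obtain ⟨a, ha, b, hb, rfl⟩ := hfac g
      exact ⟨_, ⟨a, ha, rfl⟩, _, ⟨b, hb, rfl⟩, map_mul _ _ _⟩
    exact Group.isSolvable_of_ker_le_range N.subtype (QuotientGroup.mk' N) (by simp)
  have hb : ∀ H : Subgroup G, B ≤ H → H ≠ ⊤ → Group.IsSolvable H := by
    intro H hBH hH
    refine ih _ (hn ▸ card_lt_of_ne_top hH) H rfl ((H ⊓ A).subgroupOf H) (B.subgroupOf H)
      (isNilpotent_subgroupOf (isNilpotent_of_le hA inf_le_right) inf_le_left)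
      (isNilpotent_subgroupOf hB hBH) ?_
    intro g
    obtain ⟨a, ha', b, hb', e⟩ := hfac g
    have haH : a ∈ H := by
      have : a = g * b⁻¹ := by rw [e]; group
      rw [this]
      exact H.mul_mem g.2 (H.inv_mem (hBH hb'))
    exact ⟨⟨a, haH⟩, mem_subgroupOf.mpr ⟨haH, ha'⟩, ⟨b, hBH hb'⟩, mem_subgroupOf.mpr hb',
      Subtype.ext e⟩
  by_cases hcop : (Nat.card A).Coprime (Nat.card B)
  · exact hns (wielandt A B hA hB hcop hfac)
  obtain ⟨p, hp, hpA, hpB⟩ := Nat.Prime.not_coprime_iff_dvd.mp hcop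
  have : Fact p.Prime := ⟨hp⟩
  have hO : Cfsg.pCore p G = ⊥ := by
    apply ha _ (Cfsg.pCore_normal p G)
    have := (pCore_isPGroup (p := p) (G := G)).isNilpotent
    infer_instance
  obtain ⟨a, haA, hao, hac⟩ := exists_central_prime hA hpA
  obtain ⟨b, hbB, hbo, hbc⟩ := exists_central_prime hB hpB
  have ha1 : a ≠ 1 := by
    rintro rfl
    rw [orderOf_one] at hao
    exact hp.one_lt.ne hao
  have hb1 : b ≠ 1 := by
    rintro rfl
    rw [orderOf_one] at hbo
    exact hp.one_lt.ne hbo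
  have hab : a * b = b * a := by
    have h1 := kegel (isPGroup_pt A p) (isPGroup_pt B p) (perm_pt hA hB hfac p) a
      ((mem_pt hA).mpr ⟨haA, 1, by rw [hao, pow_one]⟩) b
      ((mem_pt hB).mpr ⟨hbB, 1, by rw [hbo, pow_one]⟩)
    rw [hO, Subgroup.mem_bot] at h1
    exact commutatorElement_eq_one_iff_mul_comm.mp h1
  have htop : zpowers a ⊔ B = ⊤ := by
    by_contra hH
    have hsol := hb _ le_sup_right hH
    have hle : normalClosure ({a} : Set G) ≤ zpowers a ⊔ B := by
      rw [normalClosure, closure_le]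
      intro z hz
      obtain ⟨a', ha', hc⟩ := Group.mem_conjugatesOfSet_iff.mp hz
      rw [Set.mem_singleton_iff] at ha'
      subst ha'
      obtain ⟨g, rfl⟩ := isConj_iff.mp hc
      obtain ⟨α, hα, β, hβ, e⟩ := hfac g⁻¹
      have hg : g = β⁻¹ * α⁻¹ := by rw [← mul_inv_rev, ← e, inv_inv]
      have h1 : α⁻¹ * a' = a' * α⁻¹ := hac _ (A.inv_mem hα)
      have h2 : g * a' * g⁻¹ = β⁻¹ * a' * β := by
        rw [hg]
        calc β⁻¹ * α⁻¹ * a' * (β⁻¹ * α⁻¹)⁻¹ = β⁻¹ * (α⁻¹ * a') * α * β := by group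
          _ = β⁻¹ * (a' * α⁻¹) * α * β := by rw [h1]
          _ = β⁻¹ * a' * β := by group
      rw [h2]
      exact mul_mem (mul_mem (mem_sup_right (B.inv_mem hβ)) (mem_sup_left (mem_zpowers a')))
        (mem_sup_right hβ)
    have h3 := ha _ normalClosure_normal (isSolvable_of_le hsol hle)
    have h4 : a ∈ normalClosure ({a} : Set G) := subset_normalClosure (Set.mem_singleton a)
    rw [h3, Subgroup.mem_bot] at h4
    exact ha1 h4
  have hcen : ∀ g : G, g * b = b * g := by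
    have hle : zpowers a ⊔ B ≤ centralizer ({b} : Set G) := by
      refine sup_le ?_ ?_
      · rw [zpowers_le, mem_centralizer_singleton_iff]
        exact hab
      · intro z hz
        rw [mem_centralizer_singleton_iff]
        exact hbc z hz
    intro g
    exact mem_centralizer_singleton_iff.mp (hle (htop ▸ mem_top g))
  have hbn : (zpowers b).Normal := by
    refine ⟨fun z hz g => ?_⟩
    obtain ⟨k, rfl⟩ := mem_zpowers_iff.mp hz
    have h1 : Commute g (b ^ k) := (show Commute g b from hcen g).zpow_right k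
    rw [h1.eq, mul_inv_cancel_right]
    exact hz
  have h5 := ha _ hbn inferInstance
  exact hb1 (zpowers_eq_bot.mp h5)

/-- **Kegel--Wielandt.** -/
theorem kegel_wielandt {G : Type u} [Group G] [Finite G] (A B : Subgroup G)
    (hA : Group.IsNilpotent A) (hB : Group.IsNilpotent B)
    (hAB : ∀ g : G, ∃ a ∈ A, ∃ b ∈ B, g = a * b) : Group.IsSolvable G :=
  kw_aux _ G rfl A B hA hB hAB

end Cfsg.Agent.Lib.Helper2KWf
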