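import Cfsg.Agent.Lib.Helper2KWf

set_option autoImplicit false

/-! Kegel: in a product of two nilpotent groups one factor lies in a proper normal subgroup. -/

namespace Cfsg.Agent.Lib.Helper2KWg

open Subgroup
open scoped Pointwise
open Cfsg.Agent.Lib.Helper2Conj Cfsg.Agent.Lib.Helper2KWa Cfsg.Agent.Lib.Helper2KWb
open Cfsg.Agent.Lib.Helper2KWd Cfsg.Agent.Lib.Helper2KWf
open Cfsg.Agent.Lib.Helper30Bender

universe u

theorem exists_normal_of_nilpotent {G : Type u} [Group G] [Finite G] (hG : Group.IsNilpotent G)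
    {B : Subgroup G} (hB : B ≠ ⊤) : ∃ N : Subgroup G, N.Normal ∧ N ≠ ⊤ ∧ B ≤ N := by
  obtain ⟨M, hM, hBM⟩ := (eq_top_or_exists_le_coatom B).resolve_left hB
  exact ⟨M, (Group.normalizerCondition_of_isNilpotent (G := G)).normal_of_coatom M hM, hM.1, hBM⟩

theorem not_dvd_card {G : Type u} [Group G] [Finite G] {A N : Subgroup G}
    (hA : Group.IsNilpotent A) (hAt : A ≠ ⊤)
    (hstar : ∀ D : Subgroup G, D.Normal → D ≠ ⊥ → A ⊔ D = ⊤) {p : ℕ} [hp : Fact p.Prime]
    (hNn : N.Normal) (hNp : IsPGroup p N) (hNab : ∀ x ∈ N, ∀ y ∈ N, x * y = y * x)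
    (hNne : N ≠ ⊥) : ¬ p ∣ Nat.card A := by
  intro hpA
  obtain ⟨z, hzA, hzo, hzc⟩ := exists_central_prime hA hpA
  have hz1 : z ≠ 1 := by
    rintro rfl
    rw [orderOf_one] at hzo
    exact hp.out.one_lt.ne hzo
  -- a nontrivial element of `N` commuting with `z`
  have hzp : IsPGroup p (zpowers z) := IsPGroup.of_card (n := 1) (by
    rw [Nat.card_zpowers, hzo, pow_one])
  have hPp : IsPGroup p (zpowers z ⊔ N : Subgroup G) := hzp.to_sup_of_normal_right hNp
  have hPn := hPp.isNilpotent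
  have hNP : N ≤ zpowers z ⊔ N := le_sup_right
  have hKn : (N.subgroupOf (zpowers z ⊔ N)).Normal := inferInstance
  have hKne : N.subgroupOf (zpowers z ⊔ N) ≠ ⊥ := by
    intro h
    apply hNne
    rw [eq_bot_iff]
    intro x hx
    have : (⟨x, hNP hx⟩ : (zpowers z ⊔ N : Subgroup G)) ∈ N.subgroupOf (zpowers z ⊔ N) :=
      mem_subgroupOf.mpr hx
    rw [h, Subgroup.mem_bot] at this
    exact Subgroup.mem_bot.mpr (congrArg Subtype.val this)
  obtain ⟨n, hnK, hnc, hn1⟩ :=
    Cfsg.Agent.Lib.Helper31Nilpotent.exists_center_mem_of_normal (N.subgroupOf (zpowers z ⊔ N)) hKne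
  have hnz : (n : G) * z = z * n := by
    have := Subgroup.mem_center_iff.mp hnc ⟨z, mem_sup_left (mem_zpowers z)⟩
    exact (congrArg Subtype.val this).symm
  -- `D = C_N(z)` is normal in `G`
  have hDne : N ⊓ centralizer ({z} : Set G) ≠ ⊥ := by
    intro h
    have : (n : G) ∈ N ⊓ centralizer ({z} : Set G) :=
      ⟨mem_subgroupOf.mp hnK, mem_centralizer_singleton_iff.mpr hnz⟩
    rw [h, Subgroup.mem_bot] at this
    exact hn1 (Subtype.ext this)
  have hDn : (N ⊓ centralizer ({z} : Set G)).Normal := by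
    rw [← normalizer_eq_top_iff, eq_top_iff, ← hstar N hNn hNne]
    refine sup_le ?_ ?_
    · rw [le_normalizer_iff]
      intro a ha d hd
      obtain ⟨hd1, hd2⟩ := Subgroup.mem_inf.mp hd
      refine Subgroup.mem_inf.mpr ⟨hNn.conj_mem d hd1 a, ?_⟩
      rw [mem_centralizer_singleton_iff] at hd2 ⊢
      have h1 := hzc a ha
      have h2 := hzc a⁻¹ (A.inv_mem ha)
      calc a * d * a⁻¹ * z = a * d * (a⁻¹ * z) := by group
        _ = a * d * (z * a⁻¹) := by rw [h2]
        _ = a * (d * z) * a⁻¹ := by group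
        _ = a * (z * d) * a⁻¹ := by rw [hd2]
        _ = (a * z) * d * a⁻¹ := by group
        _ = (z * a) * d * a⁻¹ := by rw [h1]
        _ = z * (a * d * a⁻¹) := by group
    · rw [le_normalizer_iff]
      rintro m hm d hd
      rw [hNab m hm d hd.1, mul_inv_cancel_right]
      exact hd
  have htop := hstar _ hDn hDne
  have hcen : ∀ g : G, g * z = z * g := by
    have hle : A ⊔ (N ⊓ centralizer ({z} : Set G)) ≤ centralizer ({z} : Set G) := by
      refine sup_le ?_ inf_le_right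
      intro a ha
      exact mem_centralizer_singleton_iff.mpr (hzc a ha)
    intro g
    exact mem_centralizer_singleton_iff.mp (hle (htop ▸ mem_top g))
  have hzn : (zpowers z).Normal := by
    refine ⟨fun w hw g => ?_⟩
    obtain ⟨k, rfl⟩ := mem_zpowers_iff.mp hw
    have h1 : Commute g (z ^ k) := (show Commute g z from hcen g).zpow_right k
    rw [h1.eq, mul_inv_cancel_right]
    exact hw
  have h2 := hstar _ hzn (by rwa [Ne, zpowers_eq_bot])
  apply hAt
  rw [← h2]
  exact (sup_eq_left.mpr (zpowers_le.mpr hzA)).symm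

theorem kegel_aux : ∀ (n : ℕ) (G : Type u) [Group G] [Finite G], Nat.card G = n →
    ∀ A B : Subgroup G, Group.IsNilpotent A → Group.IsNilpotent B →
    (∀ g : G, ∃ a ∈ A, ∃ b ∈ B, g = a * b) → (A ≠ ⊤ ∨ B ≠ ⊤) →
    ∃ N : Subgroup G, N.Normal ∧ N ≠ ⊤ ∧ (A ≤ N ∨ B ≤ N) := by
  intro n
  induction n using Nat.strong_induction_on with
  | _ n ih =>
  intro G _ _ hn A B hA hB hfac hproper
  by_cases hAt : A = ⊤
  · subst hAt
    have hG : Group.IsNilpotent G := (Group.isNilpotent_congr Subgroup.topEquiv).mp hA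
    obtain ⟨N, h1, h2, h3⟩ := exists_normal_of_nilpotent hG (hproper.resolve_left (by simp))
    exact ⟨N, h1, h2, Or.inr h3⟩
  by_cases hBt : B = ⊤
  · subst hBt
    have hG : Group.IsNilpotent G := (Group.isNilpotent_congr Subgroup.topEquiv).mp hB
    obtain ⟨N, h1, h2, h3⟩ := exists_normal_of_nilpotent hG hAt
    exact ⟨N, h1, h2, Or.inl h3⟩
  by_contra hcon
  have hstar : ∀ D : Subgroup G, D.Normal → D ≠ ⊥ → A ⊔ D = ⊤ ∧ B ⊔ D = ⊤ := by
    intro D hD hDne
    by_contra hne
    apply hcon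
    have hmap : ∀ C : Subgroup G, C ⊔ D ≠ ⊤ → C.map (QuotientGroup.mk' D) ≠ ⊤ := by
      intro C hC h
      apply hC
      have h1 := congrArg (Subgroup.comap (QuotientGroup.mk' D)) h
      rw [Subgroup.comap_map_eq, QuotientGroup.ker_mk', Subgroup.comap_top] at h1
      exact h1
    have hpr : A.map (QuotientGroup.mk' D) ≠ ⊤ ∨ B.map (QuotientGroup.mk' D) ≠ ⊤ := by
      by_cases h1 : A ⊔ D = ⊤
      · right
        exact hmap B (fun h2 => hne ⟨h1, h2⟩)
      · left
        exact hmap A h1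
    obtain ⟨M, hMn, hMt, hM⟩ := ih _ (hn ▸ card_quotient_lt hDne) (G ⧸ D) rfl
      (A.map (QuotientGroup.mk' D)) (B.map (QuotientGroup.mk' D)) (isNilpotent_map hA _)
      (isNilpotent_map hB _) (by
        intro g
        obtain ⟨g, rfl⟩ := QuotientGroup.mk'_surjective D g
        obtain ⟨a, ha, b, hb, rfl⟩ := hfac g
        exact ⟨_, ⟨a, ha, rfl⟩, _, ⟨b, hb, rfl⟩, map_mul _ _ _⟩) hpr
    refine ⟨M.comap (QuotientGroup.mk' D), hMn.comap _, ?_, ?_⟩
    · intro h
      apply hMt
      have := Subgroup.map_comap_eq_self_of_surjective (QuotientGroup.mk'_surjective D) M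
      rw [h, Subgroup.map_top_of_surjective _ (QuotientGroup.mk'_surjective D)] at this
      exact this.symm
    · rcases hM with h | h
      · exact Or.inl (Subgroup.map_le_iff_le_comap.mp h)
      · exact Or.inr (Subgroup.map_le_iff_le_comap.mp h)
  have hsol : Group.IsSolvable G := kegel_wielandt A B hA hB hfac
  have hsolT : Group.IsSolvable (⊤ : Subgroup G) := inferInstance
  have hFne : Cfsg.fittingOf (⊤ : Subgroup G) ≠ ⊥ := by
    intro h
    have h1 := inf_centralizer_fittingOf_le hsolT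
    rw [h] at h1
    apply hAt
    have : (⊤ : Subgroup G) ≤ ⊥ := by
      intro x hx
      apply h1
      refine Subgroup.mem_inf.mpr ⟨hx, ?_⟩
      rw [mem_centralizer_iff]
      intro y hy
      rw [Subgroup.mem_bot.mp hy]
      simp
    rw [eq_top_iff]
    exact this.trans bot_le
  have nF := fittingOf_isNilpotent (⊤ : Subgroup G)
  obtain ⟨p, hp, hpd⟩ := Nat.exists_prime_and_dvd
    (fun h => hFne ((Subgroup.card_eq_one).mp h) : Nat.card (Cfsg.fittingOf (⊤ : Subgroup G)) ≠ 1)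
  have : Fact p.Prime := ⟨hp⟩
  have hNn : (zq (Cfsg.fittingOf (⊤ : Subgroup G)) p).Normal := by
    rw [← normalizer_eq_top_iff, eq_top_iff]
    exact (le_normalizer_fittingOf ⊤).trans (normalizer_le_normalizer_zq _ p)
  have hNne := zq_ne_bot nF hpd
  have hNp := isPGroup_zq (Cfsg.fittingOf (⊤ : Subgroup G)) p
  have hNab : ∀ x ∈ zq (Cfsg.fittingOf (⊤ : Subgroup G)) p,
      ∀ y ∈ zq (Cfsg.fittingOf (⊤ : Subgroup G)) p, x * y = y * x := by
    intro x hx y hy
    exact mem_centralizer_iff.mp (zq_le_centralizer_zq _ p p hy) x hx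
  have h1 := not_dvd_card hA hAt (fun D hD hDne => (hstar D hD hDne).1) hNn hNp hNab hNne
  have h2 := not_dvd_card hB hBt (fun D hD hDne => (hstar D hD hDne).2) hNn hNp hNab hNne
  have h3 : p ∣ Nat.card G := by
    obtain ⟨k, hk⟩ := IsPGroup.iff_card.mp hNp
    have hk0 : k ≠ 0 := by
      rintro rfl
      rw [pow_zero] at hk
      exact hNne ((Subgroup.card_eq_one).mp hk)
    exact (dvd_pow_self p hk0).trans (hk ▸ Subgroup.card_subgroup_dvd_card _)
  have h4 : Nat.card G ∣ Nat.card A * Nat.card B := by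
    have h5 := Cfsg.Agent.Lib.Helper12Card.card_mul_set_mul_card_inf A B
    have h6 : ((A : Set G) * (B : Set G) : Set G) = Set.univ := by
      rw [Set.eq_univ_iff_forall]
      intro g
      obtain ⟨a, ha, b, hb, rfl⟩ := hfac g
      exact Set.mem_mul.mpr ⟨a, ha, b, hb, rfl⟩
    rw [h6, Nat.card_univ] at h5
    exact ⟨_, h5.symm⟩
  rcases (Nat.Prime.dvd_mul hp).mp (h3.trans h4) with h | h
  · exact h1 h
  · exact h2 h

end Cfsg.Agent.Lib.Helper2KWg
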