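import Cfsg.Agent.S0540
import Cfsg.Agent.Lib.Helper2Conj
import Mathlib.GroupTheory.IsSubnormal
import Mathlib.GroupTheory.Index
import Mathlib.Algebra.Group.Subgroup.Finite

set_option autoImplicit false
open Pointwise

namespace Cfsg.Agent.Lib.Helper2Wielandt

open Subgroup Cfsg.Agent.Lib.Helper2Conj

variable {G : Type*} [Group G]

/-- Relative subnormality restricts to intermediate subgroups. -/
theorem sn_restrict {A D V : Subgroup G} (hDV : D ≤ V) (h : (A.subgroupOf V).IsSubnormal) :
    (A.subgroupOf D).IsSubnormal := by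
  rw [← comap_inclusion_subgroupOf hDV A]
  exact h.comap _

/-- Relative subnormality is invariant under conjugation. -/
theorem sn_conj {A V : Subgroup G} (g : G) (h : (A.subgroupOf V).IsSubnormal) :
    ((MulAut.conj g • A).subgroupOf (MulAut.conj g • V)).IsSubnormal := by
  have e : (MulAut.conj g • A).subgroupOf (MulAut.conj g • V)
      = (A.subgroupOf V).comap (Subgroup.equivSMul (MulAut.conj g) V).symm.toMonoidHom := by
    ext x
    rw [mem_subgroupOf, mem_comap, mem_subgroupOf, mem_conj_smul]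
    have : (((Subgroup.equivSMul (MulAut.conj g) V).symm x : V) : G) = g⁻¹ * x * g := by
      obtain ⟨y, rfl⟩ := (Subgroup.equivSMul (MulAut.conj g) V).surjective x
      rw [MulEquiv.symm_apply_apply]
      have : ((Subgroup.equivSMul (MulAut.conj g) V y : (MulAut.conj g • V : Subgroup G)) : G)
          = g * y * g⁻¹ := rfl
      rw [this]
      simp [mul_assoc]
    simp only [MulEquiv.toMonoidHom_eq_coe, MonoidHom.coe_coe]
    rw [this]
  rw [e]
  exact h.comap _

/-- Passing relative subnormality to a subgroup regarded as a group. -/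
theorem sn_subgroupOf {X Y K : Subgroup G} (hYK : Y ≤ K) (h : (X.subgroupOf Y).IsSubnormal) :
    ((X.subgroupOf K).subgroupOf (Y.subgroupOf K)).IsSubnormal := by
  have e : (X.subgroupOf K).subgroupOf (Y.subgroupOf K)
      = (X.subgroupOf Y).comap (Subgroup.subgroupOfEquivOfLe hYK).toMonoidHom := by
    ext x
    rfl
  rw [e]
  exact h.comap _

/-- The zipper lemma. -/
theorem zipper [Finite G] (A : Subgroup G) (hA : ¬ A.IsSubnormal)
    (h : ∀ K : Subgroup G, A ≤ K → K ≠ ⊤ → (A.subgroupOf K).IsSubnormal) :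
    ∃ M : Subgroup G, M ≠ ⊤ ∧ A ≤ M ∧ ∀ K : Subgroup G, A ≤ K → K ≠ ⊤ → K ≤ M := by
  have hAtop : A ≠ ⊤ := by
    rintro rfl
    exact hA IsSubnormal.top
  obtain ⟨M, hM, hmax⟩ := Cfsg.Agent.S0540.result A {K | A ≤ K ∧ K ≠ ⊤} ⟨A, le_rfl, hAtop⟩
    (fun V => {B | (∃ g : G, B = MulAut.conj g • A) ∧ B ≤ V ∧ (B.subgroupOf V).IsSubnormal})
    (fun V B => Iff.rfl)
    (fun V hV => ⟨⟨1, by simp⟩, hV.1, h V hV.1 hV.2⟩)
    (by
      rintro V hV W - B ⟨⟨g, rfl⟩, -, -⟩ hBV
      refine ⟨⟨g, rfl⟩, hBV, ?_⟩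
      have h1 : A ≤ MulAut.conj g⁻¹ • V := by
        rw [map_inv, ← Subgroup.pointwise_smul_subset_iff]
        exact hBV
      have h2 : MulAut.conj g⁻¹ • V ≠ ⊤ := by
        intro htop
        apply hV.2
        rw [eq_top_iff]
        intro x _
        have : g⁻¹ * x * g ∈ MulAut.conj g⁻¹ • V := htop ▸ mem_top _
        rw [mem_conj_smul] at this
        simpa [mul_assoc] using this
      have h3 := sn_conj g (h _ h1 h2)
      rwa [conj_smul_smul, mul_inv_cancel, map_one, one_smul] at h3)
    (by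
      intro V hV W hW
      set D : Subgroup G := sSup ({B | (∃ g : G, B = MulAut.conj g • A) ∧ B ≤ V ∧
        (B.subgroupOf V).IsSubnormal} ∩ {B | (∃ g : G, B = MulAut.conj g • A) ∧ B ≤ W ∧
        (B.subgroupOf W).IsSubnormal}) with hD
      have hAD : A ≤ D := le_sSup ⟨⟨⟨1, by simp⟩, hV.1, h V hV.1 hV.2⟩,
        ⟨⟨1, by simp⟩, hW.1, h W hW.1 hW.2⟩⟩
      have hDV : D ≤ V := sSup_le (fun B hB => hB.1.2.1)
      refine ⟨normalizer (D : Set G), ⟨hAD.trans le_normalizer, ?_⟩, le_rfl⟩
      intro htop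
      apply hA
      have hDn : D.Normal := normalizer_eq_top_iff.1 htop
      exact IsSubnormal.trans hAD (sn_restrict hDV (h V hV.1 hV.2)) hDn.isSubnormal)
  exact ⟨M, hM.2, hM.1, fun K h1 h2 => hmax K ⟨h1, h2⟩⟩

theorem isSubnormal_of_subgroupOf_top {A Y : Subgroup G} (hY : Y = ⊤)
    (h : (A.subgroupOf Y).IsSubnormal) : A.IsSubnormal := by
  subst hY
  exact IsSubnormal.trans le_top h IsSubnormal.top

universe u

/-- Wielandt's criterion in the refined form: only conjugates of `A` by conjugates of elements of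
`A` are needed. -/
theorem wielandt_aux (n : ℕ) : ∀ (G : Type u) [Group G] [Finite G], Nat.card G = n →
    ∀ A : Subgroup G,
      (∀ a ∈ A, ∀ g : G, (A.subgroupOf (A ⊔ MulAut.conj (g⁻¹ * a * g) • A)).IsSubnormal) →
      A.IsSubnormal := by
  induction n using Nat.strong_induction_on with
  | _ n ih =>
    intro G _ _ hn A h
    by_contra hA
    have hsub : ∀ K : Subgroup G, A ≤ K → K ≠ ⊤ → (A.subgroupOf K).IsSubnormal := by
      intro K hAK hK
      have hlt : Nat.card K < n := by
        rw [← hn]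
        by_contra hcon
        exact hK (Subgroup.eq_top_of_le_card K (not_lt.1 hcon))
      apply ih _ hlt K rfl
      intro a ha g
      have ha' : (a : G) ∈ A := ha
      have h1 := h a ha' g
      have hcK : MulAut.conj ((g : G)⁻¹ * a * g) • A ≤ K := by
        intro x hx
        rw [mem_conj_smul] at hx
        have hy : (g : G)⁻¹ * a * g ∈ K := (g⁻¹ * a * g).2
        have := K.mul_mem (K.mul_mem hy (hAK hx)) (K.inv_mem hy)
        simpa [mul_assoc] using this
      have h2 := sn_subgroupOf (K := K) (sup_le hAK hcK) h1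
      rw [subgroupOf_sup hAK hcK] at h2
      have h3 := conj_smul_subgroupOf hAK (g⁻¹ * a * g)
      rw [h3]
      exact h2
    obtain ⟨M, hMtop, hAM, hmax⟩ := zipper A hA hsub
    have hNM : normalizer (M : Set G) ≤ M := by
      apply hmax _ (hAM.trans le_normalizer)
      intro htop
      have hMn : M.Normal := normalizer_eq_top_iff.1 htop
      exact hA (IsSubnormal.trans hAM (hsub M hAM hMtop) hMn.isSubnormal)
    have hconj : ∀ a ∈ A, ∀ g : G, g⁻¹ * a * g ∈ M := by
      intro a ha g
      set y := g⁻¹ * a * g with hy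
      have hY : A ⊔ MulAut.conj y • A ≠ ⊤ := fun htop =>
        hA (isSubnormal_of_subgroupOf_top htop (h a ha g))
      have h1 : MulAut.conj y • A ≤ M := le_sup_right.trans (hmax _ le_sup_left hY)
      have h2 : A ≤ MulAut.conj y⁻¹ • M := by
        rw [map_inv, ← Subgroup.pointwise_smul_subset_iff]
        exact h1
      have h3 : MulAut.conj y⁻¹ • M ≠ ⊤ := by
        intro htop
        apply hMtop
        apply Subgroup.eq_top_of_card_eq
        rw [← card_conj_smul M y⁻¹, htop, card_top]
      have h4 : MulAut.conj y⁻¹ • M ≤ M := hmax _ h2 h3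
      have h5 : MulAut.conj y⁻¹ • M = M :=
        Subgroup.eq_of_le_of_card_ge h4 (card_conj_smul M y⁻¹).ge
      have h6 : y⁻¹ ∈ normalizer (M : Set G) := conj_smul_eq_iff_mem_normalizer.1 h5
      exact hNM (inv_mem_iff.1 h6)
    have hle : normalClosure (A : Set G) ≤ M := by
      unfold normalClosure
      rw [closure_le]
      intro x hx
      obtain ⟨a, ha, hax⟩ := Group.mem_conjugatesOfSet_iff.1 hx
      obtain ⟨c, rfl⟩ := isConj_iff.1 hax
      have := hconj a ha c⁻¹
      simpa using this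
    have hAN : A ≤ normalClosure (A : Set G) := subset_normalClosure
    have hNtop : normalClosure (A : Set G) ≠ ⊤ := by
      intro htop
      exact hMtop (top_le_iff.1 (htop ▸ hle))
    exact hA (IsSubnormal.trans hAN (hsub _ hAN hNtop) normalClosure_normal.isSubnormal)

theorem wielandt_refined {G : Type u} [Group G] [Finite G] (A : Subgroup G)
    (h : ∀ a ∈ A, ∀ g : G, (A.subgroupOf (A ⊔ MulAut.conj (g⁻¹ * a * g) • A)).IsSubnormal) :
    A.IsSubnormal := wielandt_aux _ G rfl A h

end Cfsg.Agent.Lib.Helper2Wielandt
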