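import Cfsg.Agent.Lib.Helper30BPXwd

set_option autoImplicit false

/-! PROJECT 43 wave 3, pieces `gtri`, `gdis` (`ext2`, `ext3`/`ext4`, `x_cs` are extra last hypotheses). -/

namespace Cfsg.Agent.Lib.Helper30BPGtri

open Matrix Cfsg.Agent.Lib.Helper43BP Cfsg.Agent.Lib.Helper43St Cfsg.Agent.Lib.Helper43Gl
  Cfsg.Agent.Lib.Helper30BPXwd

variable {m : ℕ} {F : Type*} [Field F] {P : Type*} [Group P] (G : GSys m F P)

-- piece `gtri`
theorem g_tri (τ : Fin 3 → Fin (m + 4)) (hτ : Function.Injective τ)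
    (ext2 : ∀ (i j : Fin (m + 4)), i ≠ j → ∃ σ : An m, σ.1 0 = i ∧ σ.1 1 = j)
    (ext3 : ∀ (i j k : Fin (m + 4)), i ≠ j → i ≠ k → j ≠ k →
      ∃ σ : An m, (σ.1 0 = i ∧ σ.1 1 = j ∧ σ.1 2 = k) ∨ (σ.1 0 = j ∧ σ.1 1 = i ∧ σ.1 2 = k))
    (x_cs : ∀ (a b : Fin 3), a ≠ b → ∀ t : F, G.ι (tv a b t) =
      G.x ((![0, 1, 2] : Fin 3 → Fin (m + 4)) a) ((![0, 1, 2] : Fin 3 → Fin (m + 4)) b) t) :
    ∃ f : SpecialLinearGroup (Fin 3) F →* P, ∀ a b t, a ≠ b → f (tv a b t) = G.x (τ a) (τ b) t := by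
  have hinj : Function.Injective (![0, 1, 2] : Fin 3 → Fin (m + 4)) := by
    intro a b hab
    have h01 := ne01 m
    have h02 := ne02 m
    have h12 := ne12 m
    fin_cases a <;> fin_cases b <;> simp_all [eq_comm]
  obtain ⟨σ, h | h⟩ := ext3 (τ 0) (τ 1) (τ 2) (hτ.ne (by decide)) (hτ.ne (by decide))
    (hτ.ne (by decide))
  · obtain ⟨h0, h1, h2⟩ := h
    have hσ : ∀ a : Fin 3, σ.1 ((![0, 1, 2] : Fin 3 → Fin (m + 4)) a) = τ a := by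
      intro a
      fin_cases a
      · exact h0
      · exact h1
      · exact h2
    refine ⟨(MulAut.conj (G.θ σ)).toMonoidHom.comp G.ι, fun a b t hab => ?_⟩
    show G.θ σ * G.ι (tv a b t) * (G.θ σ)⁻¹ = _
    rw [x_cs a b hab t, x_equiv G σ _ _ (hinj.ne hab) t ext2, hσ, hσ]
  · obtain ⟨h0, h1, h2⟩ := h
    have hσ : ∀ a : Fin 3,
        σ.1 ((![0, 1, 2] : Fin 3 → Fin (m + 4)) (Equiv.swap 0 1 a)) = τ a := by
      intro a
      fin_cases a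
      · exact h1
      · exact h0
      · exact h2
    refine ⟨((MulAut.conj (G.θ σ)).toMonoidHom.comp G.ι).comp G.sw, fun a b t hab => ?_⟩
    show G.θ σ * G.ι (G.sw (tv a b t)) * (G.θ σ)⁻¹ = _
    rw [G.hsw a b t hab, x_cs _ _ ((Equiv.swap 0 1).injective.ne hab) t,
      x_equiv G σ _ _ (hinj.ne ((Equiv.swap 0 1).injective.ne hab)) t ext2, hσ, hσ]

-- piece `gdis`
theorem g_dis (i j k l : Fin (m + 4)) (hij : i ≠ j) (hkl : k ≠ l) (hik : i ≠ k) (hil : i ≠ l)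
    (hjk : j ≠ k) (hjl : j ≠ l) (s t : F)
    (ext2 : ∀ (i j : Fin (m + 4)), i ≠ j → ∃ σ : An m, σ.1 0 = i ∧ σ.1 1 = j)
    (ext4 : ∀ (i j k l : Fin (m + 4)), i ≠ j → k ≠ l → i ≠ k → i ≠ l → j ≠ k → j ≠ l →
      ∃ σ : An m, σ.1 0 = i ∧ σ.1 1 = j ∧ ((σ.1 2 = k ∧ σ.1 3 = l) ∨ (σ.1 2 = l ∧ σ.1 3 = k)))
    (x_cs : ∀ (a b : Fin 3), a ≠ b → ∀ t : F, G.ι (tv a b t) =
      G.x ((![0, 1, 2] : Fin 3 → Fin (m + 4)) a) ((![0, 1, 2] : Fin 3 → Fin (m + 4)) b) t) :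
    Commute (G.x i j s) (G.x k l t) := by
  have h01 := ne01 m
  have h02 := ne02 m
  have h03 := ne03 m
  have h12 := ne12 m
  have h13 := ne13 m
  have h23 := ne23 m
  have s0 : (sigA m).1 0 = 2 := by
    show (Equiv.swap 0 2 * Equiv.swap 1 3 : Equiv.Perm (Fin (m + 4))) 0 = 2
    rw [Equiv.Perm.mul_apply, Equiv.swap_apply_of_ne_of_ne h01 h03, Equiv.swap_apply_left]
  have s1 : (sigA m).1 1 = 3 := by
    show (Equiv.swap 0 2 * Equiv.swap 1 3 : Equiv.Perm (Fin (m + 4))) 1 = 3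
    rw [Equiv.Perm.mul_apply, Equiv.swap_apply_left, Equiv.swap_apply_of_ne_of_ne h03.symm h23.symm]
  have e01 : ∀ s : F, G.ι (tv 0 1 s) = G.x 0 1 s := fun s => x_cs 0 1 (by decide) s
  have e10 : ∀ s : F, G.ι (tv 1 0 s) = G.x 1 0 s := fun s => x_cs 1 0 (by decide) s
  have c23 : ∀ s t : F, Commute (G.x 0 1 s) (G.x 2 3 t) := by
    intro s t
    have := G.k4 s t
    rw [e01 s, e01 t, x_equiv G (sigA m) 0 1 h01 t ext2, s0, s1] at this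
    exact this
  have c32 : ∀ s t : F, Commute (G.x 0 1 s) (G.x 3 2 t) := by
    intro s t
    have := G.k4' s t
    rw [e01 s, e10 t, x_equiv G (sigA m) 1 0 h01.symm t ext2, s0, s1] at this
    exact this
  have conj : ∀ (σ : An m) (a b : P), Commute a b →
      Commute (G.θ σ * a * (G.θ σ)⁻¹) (G.θ σ * b * (G.θ σ)⁻¹) := by
    intro σ a b hab
    unfold Commute SemiconjBy
    have e1 : G.θ σ * a * (G.θ σ)⁻¹ * (G.θ σ * b * (G.θ σ)⁻¹) = G.θ σ * (a * b) * (G.θ σ)⁻¹ := by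
      group
    have e2 : G.θ σ * b * (G.θ σ)⁻¹ * (G.θ σ * a * (G.θ σ)⁻¹) = G.θ σ * (b * a) * (G.θ σ)⁻¹ := by
      group
    rw [e1, e2, hab.eq]
  obtain ⟨σ, h0, h1, h | h⟩ := ext4 i j k l hij hkl hik hil hjk hjl
  · have := conj σ _ _ (c23 s t)
    rw [x_equiv G σ 0 1 h01 s ext2, x_equiv G σ 2 3 h23 t ext2, h0, h1, h.1, h.2] at this
    exact this
  · have := conj σ _ _ (c32 s t)
    rw [x_equiv G σ 0 1 h01 s ext2, x_equiv G σ 3 2 h23.symm t ext2, h0, h1, h.1, h.2] at this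
    exact this

end Cfsg.Agent.Lib.Helper30BPGtri
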