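import Cfsg.Agent.Lib.Helper30BPRelbasic

set_option autoImplicit false

namespace Cfsg.Agent.Lib.Helper30BPHact

open Matrix Cfsg.Agent.Lib.Helper43St Cfsg.Agent.Lib.Helper43P3 Cfsg.Agent.Lib.Helper30BPRelbasic

variable {n : ℕ} {F : Type*} [Field F] {P : Type*} [Group P] (S : StSys n F P)

set_option maxHeartbeats 3200000 in
/-- all six conjugation formulas inside a triple -/
theorem h_act_tri (i j k : Fin n) (hij : i ≠ j) (hik : i ≠ k) (hjk : j ≠ k) (a : F) (ha : a ≠ 0)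
    (t : F) :
    S.hh i j a * S.x i j t * (S.hh i j a)⁻¹ = S.x i j (a * a * t) ∧
    S.hh i j a * S.x j i t * (S.hh i j a)⁻¹ = S.x j i (a⁻¹ * a⁻¹ * t) ∧
    S.hh i j a * S.x i k t * (S.hh i j a)⁻¹ = S.x i k (a * t) ∧
    S.hh i j a * S.x k i t * (S.hh i j a)⁻¹ = S.x k i (a⁻¹ * t) ∧
    S.hh i j a * S.x j k t * (S.hh i j a)⁻¹ = S.x j k (a⁻¹ * t) ∧
    S.hh i j a * S.x k j t * (S.hh i j a)⁻¹ = S.x k j (a * t) := by
  obtain ⟨f, h01, h10, h02, h20, h12, h21⟩ := tri3 S i j k hij hik hjk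
  unfold StSys.hh StSys.w
  simp only [← h01, ← h10, ← h02, ← h20, ← h12, ← h21, ← map_mul, ← map_inv]
  refine ⟨?_, ?_, ?_, ?_, ?_, ?_⟩ <;> congr 1 <;> simp only [_root_.mul_inv_rev, tv_inv, inv_inv] <;>
    ext c d <;> fin_cases c <;> fin_cases d <;>
    simp [Matrix.mul_apply, Fin.sum_univ_three, tv_apply, ha] <;> field_simp <;> ring

-- piece `hact`
theorem h_act (hn : 3 ≤ n) (i j : Fin n) (hij : i ≠ j) (a : F) (ha : a ≠ 0) (k l : Fin n)
    (hkl : k ≠ l) (t : F) :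
    ∃ t', S.hh i j a * S.x k l t * (S.hh i j a)⁻¹ = S.x k l t' := by
  by_cases hki : k = i
  · subst hki
    by_cases hlj : l = j
    · subst hlj
      obtain ⟨m, hm1, hm2⟩ := exists_third hn k l
      exact ⟨_, (h_act_tri S k l m hij hm1 hm2 a ha t).1⟩
    · exact ⟨_, (h_act_tri S k j l hij hkl (Ne.symm hlj) a ha t).2.2.1⟩
  · by_cases hkj : k = j
    · subst hkj
      by_cases hli : l = i
      · subst hli
        obtain ⟨m, hm1, hm2⟩ := exists_third hn l k
        exact ⟨_, (h_act_tri S l k m hij hm1 hm2 a ha t).2.1⟩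
      · exact ⟨_, (h_act_tri S i k l hij (Ne.symm hli) hkl a ha t).2.2.2.2.1⟩
    · by_cases hli : l = i
      · subst hli
        exact ⟨_, (h_act_tri S l j k hij (Ne.symm hki) (Ne.symm hkj) a ha t).2.2.2.1⟩
      · by_cases hlj : l = j
        · subst hlj
          exact ⟨_, (h_act_tri S i l k hij (Ne.symm hki) (Ne.symm hkj) a ha t).2.2.2.2.2⟩
        · refine ⟨t, ?_⟩
          have c1 : ∀ s, Commute (S.x i j s) (S.x k l t) := fun s =>
            S.dis i j k l hij hkl (Ne.symm hki) (Ne.symm hli) (Ne.symm hkj) (Ne.symm hlj) s t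
          have c2 : ∀ s, Commute (S.x j i s) (S.x k l t) := fun s =>
            S.dis j i k l hij.symm hkl (Ne.symm hkj) (Ne.symm hlj) (Ne.symm hki) (Ne.symm hli) s t
          have cw : ∀ s, Commute (S.w i j s) (S.x k l t) := fun s =>
            ((c1 s).mul_left (c2 _)).mul_left (c1 s)
          have ch : Commute (S.hh i j a) (S.x k l t) := (cw a).mul_left (cw 1).inv_left
          rw [ch.eq, mul_assoc, mul_inv_cancel, mul_one]

end Cfsg.Agent.Lib.Helper30BPHact
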