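import Cfsg.Agent.Lib.Helper30BPHrel

set_option autoImplicit false

namespace Cfsg.Agent.Lib.Helper30BPHcomm

open Matrix Cfsg.Agent.Lib.Helper43St Cfsg.Agent.Lib.Helper43P3 Cfsg.Agent.Lib.Helper30BPRelbasic
  Cfsg.Agent.Lib.Helper30BPHrel

variable {n : ℕ} {F : Type*} [Field F] {P : Type*} [Group P] (S : StSys n F P)

theorem hh_comm_same (hn : 3 ≤ n) (i j : Fin n) (hij : i ≠ j) (a b : F) (ha : a ≠ 0)
    (hb : b ≠ 0) : Commute (S.hh i j a) (S.hh i j b) := by
  unfold Commute SemiconjBy
  rw [← hh_mul S hn i j hij a b ha hb, ← hh_mul S hn i j hij b a hb ha, mul_comm]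

set_option maxHeartbeats 1600000 in
theorem hh_comm_tri (i j k : Fin n) (hij : i ≠ j) (hik : i ≠ k) (hjk : j ≠ k) (a b : F)
    (ha : a ≠ 0) (hb : b ≠ 0) : Commute (S.hh i j a) (S.hh i k b) := by
  obtain ⟨f, h01, h10, h02, h20, h12, h21⟩ := tri3 S i j k hij hik hjk
  unfold Commute SemiconjBy StSys.hh StSys.w
  simp only [← h01, ← h10, ← h02, ← h20, ← h12, ← h21, ← map_mul, ← map_inv]
  congr 1
  simp only [_root_.mul_inv_rev, tv_inv]
  ext c d
  fin_cases c <;> fin_cases d <;>
    simp [Matrix.mul_apply, Fin.sum_univ_three, tv_apply, ha, hb] <;> field_simp <;> ring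

-- piece `hcomm`
theorem hh_comm (hn : 3 ≤ n) (i j k l : Fin n) (hij : i ≠ j) (hkl : k ≠ l) (a b : F) (ha : a ≠ 0)
    (hb : b ≠ 0) : Commute (S.hh i j a) (S.hh k l b) := by
  by_cases hki : k = i
  · subst hki
    by_cases hlj : l = j
    · subst hlj
      exact hh_comm_same S hn k l hij a b ha hb
    · exact hh_comm_tri S k j l hij hkl (Ne.symm hlj) a b ha hb
  · by_cases hkj : k = j
    · subst hkj
      by_cases hli : l = i
      · subst hli
        rw [hh_symm S hn l k hij b hb]
        exact (hh_comm_same S hn l k hij a b ha hb).inv_right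
      · -- hh i k a vs hh k l b
        have h1 := hh_comm_tri S k i l hij.symm hkl (Ne.symm hli) a b ha hb
        rw [hh_symm S hn i k hij a ha] at h1
        simpa using h1.inv_left
    · by_cases hli : l = i
      · subst hli
        -- hh l j a vs hh k l b
        have h1 := hh_comm_tri S l j k hij (Ne.symm hki) (Ne.symm hkj) a b ha hb
        rw [hh_symm S hn k l hkl b hb] at h1
        simpa using h1.inv_right
      · by_cases hlj : l = j
        · subst hlj
          -- hh i l a vs hh k l b
          have h1 := hh_comm_tri S l i k hij.symm hkl.symm (Ne.symm hki) a b ha hb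
          rw [hh_symm S hn k l hkl b hb, hh_symm S hn i l hij a ha] at h1
          simpa using h1.inv_inv
        · have c : ∀ (p q r s : Fin n), p ≠ q → r ≠ s → p ≠ r → p ≠ s → q ≠ r → q ≠ s → ∀ u v,
              Commute (S.w p q u) (S.w r s v) := by
            intro p q r s hpq hrs hpr hps hqr hqs u v
            have c1 : ∀ u v, Commute (S.x p q u) (S.x r s v) := S.dis p q r s hpq hrs hpr hps hqr hqs
            have c2 : ∀ u v, Commute (S.x q p u) (S.x r s v) :=
              S.dis q p r s hpq.symm hrs hqr hqs hpr hps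
            have c3 : ∀ u v, Commute (S.x p q u) (S.x s r v) :=
              S.dis p q s r hpq hrs.symm hps hpr hqs hqr
            have c4 : ∀ u v, Commute (S.x q p u) (S.x s r v) :=
              S.dis q p s r hpq.symm hrs.symm hqs hqr hps hpr
            have d1 : ∀ v', Commute (S.w p q u) (S.x r s v') := fun v' =>
              ((c1 _ _).mul_left (c2 _ _)).mul_left (c1 _ _)
            have d2 : ∀ v', Commute (S.w p q u) (S.x s r v') := fun v' =>
              ((c3 _ _).mul_left (c4 _ _)).mul_left (c3 _ _)
            exact ((d1 _).mul_right (d2 _)).mul_right (d1 _)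
          have cw := c i j k l hij hkl (Ne.symm hki) (Ne.symm hli) (Ne.symm hkj) (Ne.symm hlj)
          unfold StSys.hh
          exact ((cw a b).mul_left (cw 1 b).inv_left).mul_right
            ((cw a 1).mul_left (cw 1 1).inv_left).inv_right

end Cfsg.Agent.Lib.Helper30BPHcomm
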