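import Cfsg.Agent.Lib.Helper30BPRelbasic

set_option autoImplicit false

namespace Cfsg.Agent.Lib.Helper30BPHrel

open Matrix Cfsg.Agent.Lib.Helper43St Cfsg.Agent.Lib.Helper43P3 Cfsg.Agent.Lib.Helper30BPRelbasic

variable {n : ℕ} {F : Type*} [Field F] {P : Type*} [Group P] (S : StSys n F P)

-- piece `hrel` (all)
theorem hh_mul (hn : 3 ≤ n) (i j : Fin n) (hij : i ≠ j) (a b : F) (ha : a ≠ 0) (hb : b ≠ 0) :
    S.hh i j (a * b) = S.hh i j a * S.hh i j b := by
  obtain ⟨k, hik, hjk⟩ := exists_third hn i j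
  obtain ⟨f, h01, h10, h02, h20, h12, h21⟩ := tri3 S i j k hij hik hjk
  unfold StSys.hh StSys.w
  simp only [← h01, ← h10, ← map_mul, ← map_inv]
  congr 1
  simp only [_root_.mul_inv_rev, tv_inv]
  ext c d
  fin_cases c <;> fin_cases d <;>
    simp [Matrix.mul_apply, Fin.sum_univ_three, tv_apply, ha, hb] <;> field_simp <;> ring

theorem hh_one (i j : Fin n) : S.hh i j 1 = 1 := by
  unfold StSys.hh
  exact mul_inv_cancel _

theorem hh_symm (hn : 3 ≤ n) (i j : Fin n) (hij : i ≠ j) (a : F) (ha : a ≠ 0) :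
    S.hh j i a = (S.hh i j a)⁻¹ := by
  obtain ⟨k, hik, hjk⟩ := exists_third hn i j
  obtain ⟨f, h01, h10, h02, h20, h12, h21⟩ := tri3 S i j k hij hik hjk
  unfold StSys.hh StSys.w
  simp only [← h01, ← h10, ← map_mul, ← map_inv]
  congr 1
  simp only [_root_.mul_inv_rev, tv_inv, inv_inv]
  ext c d
  fin_cases c <;> fin_cases d <;>
    simp [Matrix.mul_apply, Fin.sum_univ_three, tv_apply, ha] <;> field_simp <;> ring

theorem hh_inv (hn : 3 ≤ n) (i j : Fin n) (hij : i ≠ j) (a : F) (ha : a ≠ 0) :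
    (S.hh i j a)⁻¹ = S.hh i j a⁻¹ := by
  have := hh_mul S hn i j hij a a⁻¹ ha (inv_ne_zero ha)
  rw [mul_inv_cancel₀ ha, hh_one] at this
  exact inv_eq_of_mul_eq_one_right this.symm

theorem hh_chain (i j k : Fin n) (hij : i ≠ j) (hik : i ≠ k) (hjk : j ≠ k) (a : F) (ha : a ≠ 0) :
    S.hh i k a = S.hh i j a * S.hh j k a := by
  obtain ⟨f, h01, h10, h02, h20, h12, h21⟩ := tri3 S i j k hij hik hjk
  unfold StSys.hh StSys.w
  simp only [← h01, ← h10, ← h02, ← h20, ← h12, ← h21, ← map_mul, ← map_inv]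
  congr 1
  simp only [_root_.mul_inv_rev, tv_inv, inv_inv]
  ext c d
  fin_cases c <;> fin_cases d <;>
    simp [Matrix.mul_apply, Fin.sum_univ_three, tv_apply, ha] <;> field_simp <;> ring

end Cfsg.Agent.Lib.Helper30BPHrel
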