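import Cfsg.Agent.Lib.Helper30BPHact
import Cfsg.Agent.Lib.Helper30BPHrel

set_option autoImplicit false

namespace Cfsg.Agent.Lib.Helper30BPHu

open Matrix Cfsg.Agent.Lib.Helper43St Cfsg.Agent.Lib.Helper43P3 Cfsg.Agent.Lib.Helper30BPRelbasic
  Cfsg.Agent.Lib.Helper30BPHrel Cfsg.Agent.Lib.Helper30BPHact

/-- conjugation by `g` preserves `closure s` as soon as it maps `s` into it. -/
theorem conj_mem_closure {G : Type*} [Group G] (s : Set G) (K : Subgroup G) (g : G)
    (h : ∀ x ∈ s, g * x * g⁻¹ ∈ K) : ∀ y ∈ Subgroup.closure s, g * y * g⁻¹ ∈ K := by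
  intro y hy
  induction hy using Subgroup.closure_induction with
  | mem x hx => exact h x hx
  | one => simp
  | mul a b _ _ ha hb =>
    have : g * (a * b) * g⁻¹ = (g * a * g⁻¹) * (g * b * g⁻¹) := by group
    rw [this]; exact K.mul_mem ha hb
  | inv a _ ha =>
    have : g * a⁻¹ * g⁻¹ = (g * a * g⁻¹)⁻¹ := by group
    rw [this]; exact K.inv_mem ha

/-- if the generators `t` and their inverses normalise `K`, so does the group they generate. -/
theorem closure_conj_mem {G : Type*} [Group G] (T : Set G) (K : Subgroup G)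
    (h : ∀ t ∈ T, ∀ y ∈ K, t * y * t⁻¹ ∈ K ∧ t⁻¹ * y * t ∈ K) :
    ∀ g ∈ Subgroup.closure T, ∀ y ∈ K, g * y * g⁻¹ ∈ K ∧ g⁻¹ * y * g ∈ K := by
  intro g hg
  induction hg using Subgroup.closure_induction with
  | mem x hx => exact h x hx
  | one => intro y hy; simpa using hy
  | mul a b _ _ ha hb =>
    intro y hy
    constructor
    · have : a * b * y * (a * b)⁻¹ = a * (b * y * b⁻¹) * a⁻¹ := by group
      rw [this]; exact (ha _ (hb y hy).1).1
    · have : (a * b)⁻¹ * y * (a * b) = b⁻¹ * (a⁻¹ * y * a) * b := by group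
      rw [this]; exact (hb _ (ha y hy).2).2
  | inv a _ ha =>
    intro y hy
    refine ⟨?_, ?_⟩
    · simpa using (ha y hy).2
    · simpa using (ha y hy).1

variable {n : ℕ} {F : Type*} [Field F] {P : Type*} [Group P] (S : StSys n F P)

-- piece `hu`
theorem h_U (hn : 3 ≤ n) (η : P) (hη : η ∈ S.H) (y : P) (hy : y ∈ S.U) : η * y * η⁻¹ ∈ S.U := by
  have key : ∀ (i j : Fin n) (a : F), i ≠ j → a ≠ 0 → ∀ y ∈ S.U,
      S.hh i j a * y * (S.hh i j a)⁻¹ ∈ S.U := by
    intro i j a hij ha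
    apply conj_mem_closure
    rintro _ ⟨k, l, t, hkl, rfl⟩
    obtain ⟨t', ht'⟩ := h_act S hn i j hij a ha k l hkl.ne t
    rw [ht']
    exact Subgroup.subset_closure ⟨k, l, t', hkl, rfl⟩
  refine (closure_conj_mem _ S.U ?_ η hη y hy).1
  rintro _ ⟨i, j, a, hij, ha, rfl⟩ y hy
  refine ⟨key i j a hij ha y hy, ?_⟩
  have := key i j a⁻¹ hij (inv_ne_zero ha) y hy
  rw [← hh_inv S hn i j hij a ha, inv_inv] at this
  exact this

end Cfsg.Agent.Lib.Helper30BPHu
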