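import Cfsg.Agent.Lib.Helper15BPWact

set_option autoImplicit false

namespace Cfsg.Agent.Lib.Helper30BPNact

open Matrix Cfsg.Agent.Lib.Helper43St Cfsg.Agent.Lib.Helper43P3 Cfsg.Agent.Lib.Helper15BPWact

variable {n : ℕ} {F : Type*} [Field F] {P : Type*} [Group P] (S : StSys n F P)

theorem n_act2 (hn : 3 ≤ n) (ν : P) (hν : ν ∈ S.N) :
    (∃ σ : Equiv.Perm (Fin n), ∀ k l t, k ≠ l → ∃ t', ν * S.x k l t * ν⁻¹ = S.x (σ k) (σ l) t') ∧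
    (∃ σ : Equiv.Perm (Fin n), ∀ k l t, k ≠ l → ∃ t', ν⁻¹ * S.x k l t * ν = S.x (σ k) (σ l) t') := by
  induction hν using Subgroup.closure_induction with
  | mem x hx =>
    obtain ⟨i, j, hij, rfl⟩ := hx
    have hne : i ≠ j := by
      intro h; rw [h] at hij; omega
    exact ⟨⟨Equiv.swap i j, fun k l t hkl => (w_act S hn i j hne k l hkl t).1⟩,
      ⟨Equiv.swap i j, fun k l t hkl => (w_act S hn i j hne k l hkl t).2⟩⟩
  | one => exact ⟨⟨1, fun k l t _ => ⟨t, by simp⟩⟩, ⟨1, fun k l t _ => ⟨t, by simp⟩⟩⟩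
  | mul a b _ _ ha hb =>
    obtain ⟨⟨σa, ha1⟩, ⟨τa, ha2⟩⟩ := ha
    obtain ⟨⟨σb, hb1⟩, ⟨τb, hb2⟩⟩ := hb
    constructor
    · refine ⟨σa * σb, fun k l t hkl => ?_⟩
      obtain ⟨t1, h1⟩ := hb1 k l t hkl
      obtain ⟨t2, h2⟩ := ha1 (σb k) (σb l) t1 (σb.injective.ne hkl)
      refine ⟨t2, ?_⟩
      have : a * b * S.x k l t * (a * b)⁻¹ = a * (b * S.x k l t * b⁻¹) * a⁻¹ := by group
      rw [this, h1, h2]
      rfl
    · refine ⟨τb * τa, fun k l t hkl => ?_⟩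
      obtain ⟨t1, h1⟩ := ha2 k l t hkl
      obtain ⟨t2, h2⟩ := hb2 (τa k) (τa l) t1 (τa.injective.ne hkl)
      refine ⟨t2, ?_⟩
      have : (a * b)⁻¹ * S.x k l t * (a * b) = b⁻¹ * (a⁻¹ * S.x k l t * a) * b := by group
      rw [this, h1, h2]
      rfl
  | inv a _ ha =>
    obtain ⟨h1, h2⟩ := ha
    refine ⟨?_, ?_⟩
    · simpa using h2
    · simpa using h1

-- piece `nact`
theorem n_act (hn : 3 ≤ n) (ν : P) (hν : ν ∈ S.N) :
    ∃ σ : Equiv.Perm (Fin n), ∀ k l t, k ≠ l → ∃ t', ν * S.x k l t * ν⁻¹ = S.x (σ k) (σ l) t' :=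
  (n_act2 S hn ν hν).1

end Cfsg.Agent.Lib.Helper30BPNact
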