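import Cfsg.Agent.Lib.Helper43StDefs

set_option autoImplicit false

namespace Cfsg.Agent.Lib.Helper30BPNcox

open Matrix Cfsg.Agent.Lib.Helper43St Cfsg.Agent.Lib.Helper43P3

theorem perm_eq_one_of_le {n : ℕ} (σ : Equiv.Perm (Fin n)) (h : ∀ j, σ j ≤ j) : σ = 1 := by
  have hsum : ∑ j, ((σ j : Fin n) : ℕ) = ∑ j : Fin n, (j : ℕ) :=
    Equiv.sum_comp σ (fun j : Fin n => (j : ℕ))
  have := (Finset.sum_eq_sum_iff_of_le (s := Finset.univ) (f := fun j : Fin n => ((σ j : Fin n) : ℕ))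
    (g := fun j : Fin n => (j : ℕ)) (fun j _ => h j)).mp hsum
  ext j
  simpa using this j (Finset.mem_univ j)

variable {n : ℕ} {F : Type*} [Field F] {P : Type*} [Group P] (S : StSys n F P)

-- piece `ncox` (the conclusion of `n_coxrel` is the extra hypothesis at the end)
theorem n_cox (hn : 3 ≤ n) (ν : P) (hν : ν ∈ S.N) (h : ∀ i j, j < i → (S.π ν).1 i j = 0)
    (n_coxrel : ∃ rel : Equiv.Perm (Fin n) → P → Prop, (∀ ν, rel 1 ν → ν ∈ S.H) ∧
      (∀ ν ∈ S.N, ∃ σ, rel σ ν) ∧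
      (∀ σ ν, rel σ ν → ∀ i j, (S.π ν).1 i j ≠ 0 → i = σ j)) :
    ν ∈ S.H := by
  obtain ⟨rel, h1, h2, h3⟩ := n_coxrel
  obtain ⟨σ, hσ⟩ := h2 ν hν
  have hle : ∀ j, σ j ≤ j := by
    intro j
    have hex : ∃ i, (S.π ν).1 i j ≠ 0 := by
      by_contra hcon
      push Not at hcon
      have hdet : (S.π ν).1.det = 0 := Matrix.det_eq_zero_of_column_eq_zero j hcon
      rw [(S.π ν).2] at hdet
      exact one_ne_zero hdet
    obtain ⟨i, hi⟩ := hex
    have hij := h3 σ ν hσ i j hi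
    rw [← hij]
    by_contra hlt
    exact hi (h i j (not_le.mp hlt))
  rw [perm_eq_one_of_le σ hle] at hσ
  exact h1 ν hσ

end Cfsg.Agent.Lib.Helper30BPNcox
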