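import Cfsg.Agent.Lib.Helper36BPWh
import Cfsg.Agent.Lib.Helper30BPHu

set_option autoImplicit false

namespace Cfsg.Agent.Lib.Helper30BPNh

open Matrix Cfsg.Agent.Lib.Helper43St Cfsg.Agent.Lib.Helper43P3 Cfsg.Agent.Lib.Helper36BPWh
  Cfsg.Agent.Lib.Helper30BPHu

variable {n : ℕ} {F : Type*} [Field F] {P : Type*} [Group P] (S : StSys n F P)

theorem n_H2 (hn : 3 ≤ n) (ν : P) (hν : ν ∈ S.N) (η : P) (hη : η ∈ S.H) :
    ν * η * ν⁻¹ ∈ S.H ∧ ν⁻¹ * η * ν ∈ S.H := by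
  refine closure_conj_mem _ S.H ?_ ν hν η hη
  rintro _ ⟨i, j, hij, rfl⟩ y hy
  have hne : i ≠ j := by
    intro h; rw [h] at hij; omega
  constructor
  · refine conj_mem_closure _ S.H _ ?_ y hy
    rintro _ ⟨k, l, a, hkl, ha, rfl⟩
    rw [w_hh S hn i j hne k l hkl a ha]
    exact Subgroup.subset_closure ⟨_, _, a, (Equiv.swap i j).injective.ne hkl, ha, rfl⟩
  · have := conj_mem_closure _ S.H (S.w i j 1)⁻¹ ?_ y hy
    · simpa using this
    · rintro _ ⟨k, l, a, hkl, ha, rfl⟩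
      have h1 := w_hh S hn i j hne (Equiv.swap i j k) (Equiv.swap i j l)
        ((Equiv.swap i j).injective.ne hkl) a ha
      rw [Equiv.swap_apply_self, Equiv.swap_apply_self] at h1
      rw [← h1]
      have : (S.w i j 1)⁻¹ * (S.w i j 1 * S.hh (Equiv.swap i j k) (Equiv.swap i j l) a *
          (S.w i j 1)⁻¹) * (S.w i j 1)⁻¹⁻¹ = S.hh (Equiv.swap i j k) (Equiv.swap i j l) a := by
        group
      rw [this]
      exact Subgroup.subset_closure ⟨_, _, a, (Equiv.swap i j).injective.ne hkl, ha, rfl⟩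

-- piece `nh`
theorem n_H (hn : 3 ≤ n) (ν : P) (hν : ν ∈ S.N) (η : P) (hη : η ∈ S.H) : ν * η * ν⁻¹ ∈ S.H :=
  (n_H2 S hn ν hν η hη).1

-- piece `nhnormal`
theorem nh_normal (hn : 3 ≤ n) : (S.H.subgroupOf S.NH).Normal := by
  apply Subgroup.normal_subgroupOf_of_le_normalizer
  unfold StSys.NH
  refine sup_le Subgroup.le_normalizer ?_
  intro ν hν
  rw [Subgroup.mem_normalizer_iff]
  intro h
  constructor
  · intro hh
    exact n_H S hn ν hν h hh
  · intro hh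
    have := (n_H2 S hn ν hν _ hh).2
    have e : ν⁻¹ * (ν * h * ν⁻¹) * ν = h := by group
    rwa [e] at this

end Cfsg.Agent.Lib.Helper30BPNh
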