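import Cfsg.Agent.Lib.Helper23CT0

set_option autoImplicit false
set_option linter.unusedSectionVars false

namespace Cfsg.Agent.Lib.Helper30CTW0

open Subgroup Cfsg.Lie Cfsg.Lie.ChevalleyDatum Cfsg.Agent.Lib.Helper22ChevBasic Cfsg.Agent.Lib.Helper23CT

variable {D : ChevalleyDatum} (K : Type*) [Field K]

open Classical in
/-- kill the generators outside the rank two subsystems -/
noncomputable def kap : FreeGroup (Fin D.nroots × K) →* FreeGroup (Fin D.nroots × K) :=
  FreeGroup.lift (fun p => if (∃ i j, D.InRankTwoSub i j p.1.val) then FreeGroup.of p else 1)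

theorem kap_stX {i j r : ℕ} (h : D.InRankTwoSub i j r) (t : K) : kap K (D.stX r t) = D.stX r t := by
  unfold kap stX
  rw [dif_pos h.1, FreeGroup.lift_apply_of, if_pos ⟨i, j, h⟩]

theorem kap_stX_one {r : ℕ} (hr : r < D.nroots) (h : ∀ i j, ¬ D.InRankTwoSub i j r) (t : K) :
    kap K (D.stX r t) = 1 := by
  unfold kap stX
  rw [dif_pos hr, FreeGroup.lift_apply_of, if_neg (by rintro ⟨i, j, h'⟩; exact h i j h')]

theorem kap_stWord (w : List (ℕ × K)) (h : ∀ p ∈ w, ∃ i j, D.InRankTwoSub i j p.1) :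
    kap K (D.stWord w) = D.stWord w := by
  induction w with
  | nil => simp [stWord]
  | cons p w ih =>
    obtain ⟨i, j, hp⟩ := h p (by simp)
    have := ih (fun q hq => h q (by simp [hq]))
    unfold stWord at this ⊢
    rw [List.map_cons, List.prod_cons, map_mul, this, kap_stX K hp]

theorem kap_stH (hF : R2Facts D) {i j r : ℕ} (h : D.InRankTwoSub i j r) (t : K) :
    kap K (D.stH r t) = D.stH r t := by
  unfold stH
  apply kap_stWord
  intro p hp
  have hn := hF.neg i j r h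
  simp only [hWord, nWord, List.mem_append, List.mem_cons, List.not_mem_nil, or_false] at hp
  rcases hp with (rfl | rfl | rfl) | (rfl | rfl | rfl) <;> first | exact ⟨i, j, h⟩ | exact ⟨i, j, hn⟩

theorem kap_comm (hF : R2Facts D) {i j r s : ℕ} (hr : D.InRankTwoSub i j r) (hs : D.InRankTwoSub i j s)
    (t u : K) : kap K (D.stWord (D.commWord K r s t u)) = D.stWord (D.commWord K r s t u) := by
  apply kap_stWord
  intro p hp
  unfold commWord at hp
  rw [List.mem_map] at hp
  obtain ⟨e, he, rfl⟩ := hp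
  exact ⟨i, j, hF.comm i j r s hr hs e he⟩

/-- W0 -/
theorem kappa (hF : R2Facts D) {H : Type*} [Group H] (F : FreeGroup (Fin D.nroots × K) →* H)
    (hFk : ∀ g ∈ D.steinbergRels K, F g = 1) : ∃ ν : D.CurtisTitsGroup K →* H,
    ∀ i j r t, D.InRankTwoSub i j r → ν (PresentedGroup.mk (D.curtisTitsRels K) (D.stX r t)) = F (D.stX r t) := by
  have key : ∀ g ∈ D.curtisTitsRels K, (F.comp (kap K)) g = 1 := by
    intro g hg
    rw [MonoidHom.comp_apply]
    rcases hg with ((⟨r, t, hr, hn, rfl⟩ | ⟨i, j, r, t₁, t₂, hr, rfl⟩) | ⟨i, j, r, s, t, u, hr, hs, h1, h2, rfl⟩) |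
      ⟨i, j, r, t₁, t₂, hr, h1, h2, rfl⟩
    · rw [kap_stX_one K hr hn, map_one]
    · have e : kap K (D.stX r t₁ * D.stX r t₂ * (D.stX r (t₁ + t₂))⁻¹) =
          D.stX r t₁ * D.stX r t₂ * (D.stX r (t₁ + t₂))⁻¹ := by
        simp only [map_mul, map_inv, kap_stX K hr]
      rw [e]
      exact hFk _ (Or.inl (Or.inl ⟨r, t₁, t₂, hr.1, rfl⟩))
    · have e : kap K ((D.stX s u)⁻¹ * (D.stX r t)⁻¹ * D.stX s u * D.stX r t *
          (D.stWord (D.commWord K r s t u))⁻¹) = (D.stX s u)⁻¹ * (D.stX r t)⁻¹ * D.stX s u * D.stX r t *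
          (D.stWord (D.commWord K r s t u))⁻¹ := by
        simp only [map_mul, map_inv, kap_stX K hr, kap_stX K hs, kap_comm K hF hr hs]
      rw [e]
      exact hFk _ (Or.inl (Or.inr ⟨r, s, t, u, hr.1, hs.1, h1, h2, rfl⟩))
    · have e : kap K (D.stH r t₁ * D.stH r t₂ * (D.stH r (t₁ * t₂))⁻¹) =
          D.stH r t₁ * D.stH r t₂ * (D.stH r (t₁ * t₂))⁻¹ := by
        simp only [map_mul, map_inv, kap_stH K hF hr]
      rw [e]
      exact hFk _ (Or.inr ⟨r, t₁, t₂, hr.1, h1, h2, rfl⟩)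
  refine ⟨QuotientGroup.lift _ (F.comp (kap K)) ?_, ?_⟩
  · intro g hg
    have : Subgroup.normalClosure (D.curtisTitsRels K) ≤ (F.comp (kap K)).ker :=
      Subgroup.normalClosure_le_normal (fun g hg => key g hg)
    exact this hg
  · intro i j r t h
    change (F.comp (kap K)) (D.stX r t) = _
    rw [MonoidHom.comp_apply, kap_stX K h]

end Cfsg.Agent.Lib.Helper30CTW0
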