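import Cfsg.Agent.Lib.Helper30TransHyp

/-! The `Ω₁`-version of the strengthened `P × Q` lemma and its consequence for `p`-constrained
groups. -/

set_option autoImplicit false

namespace Cfsg.Agent.Lib.Helper30PQ

open Subgroup Cfsg
open Cfsg.Agent.Lib.Helper30SZ Cfsg.Agent.Lib.Helper30Coprime Cfsg.Agent.Lib.Helper30Trans
open Cfsg.Agent.Lib.Helper30Thompson Cfsg.Agent.Lib.Helper30Constrained
open Cfsg.Agent.Lib.Helper30TransHyp
open scoped commutatorElement

/-- In a class two group of odd prime exponent considerations: products of elements of order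
dividing `p`. -/
theorem mul_pow_eq_one_of_class_two {X : Type*} [Group X] {p : ℕ} (hp : p.Prime) (hp2 : p ≠ 2)
    {x y : X} (hx : x ^ p = 1) (hy : y ^ p = 1)
    (hcx : Commute ((x * y)⁻¹ * (y * x)) x) (hcy : Commute ((x * y)⁻¹ * (y * x)) y) :
    (x * y) ^ p = 1 := by
  set c := (x * y)⁻¹ * (y * x) with hc
  have h : y * x = x * y * c := by rw [hc]; group
  have h1 := pow_mul_comm_of_central h hcy p
  rw [hy, one_mul, mul_one] at h1
  have hcp : c ^ p = 1 := by
    have : x * 1 = x * c ^ p := by rw [mul_one]; exact h1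
    exact (mul_left_cancel this).symm
  have h2 := mul_pow_of_central h hcx hcy p
  have h3 : p ∣ p.choose 2 := hp.dvd_choose_self (by norm_num)
    (lt_of_le_of_ne hp.two_le (Ne.symm hp2))
  obtain ⟨m, hm⟩ := h3
  rw [h2, hx, hy, hm, pow_mul, hcp]; simp

theorem pq_omega {X : Type*} [Group X] [Finite X] {p : ℕ} [Fact p.Prime] (hp : p ≠ 2)
    (P Q : Subgroup X) (hP : IsPGroup p P) (hQ : (Nat.card Q).Coprime p)
    (hPQ : P ≤ normalizer (Q : Set X)) :
    ∀ (n : ℕ) (G : Subgroup X), Nat.card G = n → IsPGroup p G →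
      P ≤ normalizer (G : Set X) → Q ≤ normalizer (G : Set X) →
      (∀ x ∈ G ⊓ centralizer (P : Set X), x ^ p = 1 → x ∈ centralizer (Q : Set X)) →
      Q ≤ centralizer (G : Set X) := by
  have hpp : p.Prime := Fact.out
  intro n
  induction n using Nat.strong_induction_on with
  | _ n ih =>
  intro G hn hG hPG hQG hC
  have IH : ∀ H : Subgroup X, H < G → P ≤ normalizer (H : Set X) → Q ≤ normalizer (H : Set X) →
      Q ≤ centralizer (H : Set X) := by
    intro H hH h1 h2
    exact ih (Nat.card H) (hn ▸ card_lt_of_lt hH) H rfl (hG.to_le hH.le) h1 h2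
      (fun x hx hxp => hC x (inf_le_inf_right _ hH.le hx) hxp)
  have hcopG : ∀ H : Subgroup X, H ≤ G → (Nat.card Q).Coprime (Nat.card H) := by
    intro H hH
    obtain ⟨k, hk⟩ := IsPGroup.iff_card.mp (hG.to_le hH)
    rw [hk]; exact hQ.pow_right k
  have hGQ : ⁅G, Q⁆ ≤ G := commutator_le_of_le_normalizer hQG
  rcases lt_or_eq_of_le hGQ with hlt | heq
  · have h1 := IH _ hlt (le_normalizer_commutator hPG hPQ) (le_normalizer_commutator hQG le_normalizer)
    rw [le_centralizer_iff_conj] at h1 ⊢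
    refine centralizes_of_chain (hcopG _ hGQ) h1 ?_
    intro a ha x hx
    have h2 : ⁅x⁻¹, a⁆ ∈ ⁅G, Q⁆ := commutator_mem_commutator (G.inv_mem hx) ha
    rw [commutatorElement_def] at h2
    simpa [mul_assoc] using h2
  · by_cases hbot : G = ⊥
    · rw [hbot, le_centralizer_iff_conj]
      intro a _ x hx
      rw [mem_bot.mp hx]; simp
    have hs : Group.IsSolvable G := by
      have := hG.isNilpotent
      infer_instance
    have hD := Cfsg.Agent.S3737.commutator_lt_self hs hbot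
    have hQD := IH _ hD (le_normalizer_commutator hPG hPG) (le_normalizer_commutator hQG hQG)
    have h1 : ⁅Q, ⁅G, G⁆⁆ = ⊥ := by
      rw [commutator_eq_bot_iff_le_centralizer]; exact hQD
    have h2 : ⁅⁅⁅G, G⁆, G⁆, Q⁆ = ⊥ := by
      rw [commutator_comm, commutator_eq_bot_iff_le_centralizer]
      refine le_trans hQD (centralizer_le ?_)
      have : ⁅⁅G, G⁆, G⁆ ≤ ⁅G, G⁆ := commutator_mono hD.le le_rfl
      exact this
    have h3 : ⁅⁅G, Q⁆, ⁅G, G⁆⁆ = ⊥ := by
      apply commutator_commutator_eq_bot_of_rotate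
      · rw [h1]; simp
      · exact h2
    rw [heq, commutator_eq_bot_iff_le_centralizer] at h3
    -- commutators are central in `G`
    have hcen : ∀ x ∈ G, ∀ y ∈ G, ∀ z ∈ G, Commute ((x * y)⁻¹ * (y * x)) z := by
      intro x hx y hy z hz
      have e : (x * y)⁻¹ * (y * x) = ⁅y⁻¹, x⁻¹⁆ := by rw [commutatorElement_def]; group
      rw [e]
      exact (mem_centralizer_iff.mp (h3 hz)) _
        (commutator_mem_commutator (G.inv_mem hy) (G.inv_mem hx))
    let Ω : Subgroup X :=
      { carrier := {x | x ∈ G ∧ x ^ p = 1}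
        one_mem' := ⟨G.one_mem, one_pow p⟩
        mul_mem' := by
          rintro x y ⟨hx, hxp⟩ ⟨hy, hyp⟩
          exact ⟨G.mul_mem hx hy, mul_pow_eq_one_of_class_two hpp hp hxp hyp
            (hcen x hx y hy x hx) (hcen x hx y hy y hy)⟩
        inv_mem' := by
          rintro x ⟨hx, hxp⟩
          exact ⟨G.inv_mem hx, by rw [inv_pow, hxp, inv_one]⟩ }
    have hΩmem : ∀ x, x ∈ Ω ↔ x ∈ G ∧ x ^ p = 1 := fun x => Iff.rfl
    have hΩG : Ω ≤ G := fun x hx => hx.1
    have hΩn : ∀ K : Subgroup X, K ≤ normalizer (G : Set X) → K ≤ normalizer (Ω : Set X) := by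
      intro K hK
      rw [le_normalizer_iff]
      rintro a ha x ⟨hx, hxp⟩
      exact ⟨(mem_normalizer_iff.mp (hK ha) x).mp hx, by rw [conj_pow, hxp]; simp⟩
    rcases lt_or_eq_of_le hΩG with hlt | heq'
    · have h4 := IH Ω hlt (hΩn P hPG) (hΩn Q hQG)
      rw [le_centralizer_iff_conj] at h4 ⊢
      exact centralizes_of_fix_order_p p hp Q hQ G hG hQG
        (fun a ha x hx hxp => h4 a ha x ⟨hx, hxp⟩)
    · apply Cfsg.Agent.S3737.result hp P Q G hP hQ hPQ hG hPG hQG
      intro x hx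
      have hxΩ : x ∈ Ω := heq' ▸ (Subgroup.mem_inf.mp hx).1
      exact hC x hx hxΩ.2

open Cfsg.Agent.Lib.Helper1Fitting Cfsg.Agent.Lib.Helper31PLength in
/-- Invariant `p'`-subgroups of a `p`-constrained group (`p` odd) lie in `O_{p'}`, when the acting
`p`-group `E` contains all elements of order `p` of its centralizer. -/
theorem key_lemma_omega {H : Type*} [Group H] [Finite H] {p : ℕ} [Fact p.Prime] (hp2 : p ≠ 2)
    (hc : IsPConstrained p H) (E : Subgroup H) (hEp : IsPGroup p E)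
    (hEfull : ∀ x ∈ centralizer (E : Set H), x ^ p = 1 → x ∈ E)
    (K : Subgroup H) (hK : (Nat.card K).Coprime p) (hEK : E ≤ normalizer (K : Set H)) :
    K ≤ pPrimeCore p H := by
  apply le_pPrimeCore_of_centralizes hc K hK
  set L := pPrimeCore p H with hL
  set π := QuotientGroup.mk' L with hπ
  set Rb := pCore p (H ⧸ L) with hRbdef
  set M := pPrimePCore p H with hM
  have hπL : ∀ x : H, π x = 1 ↔ x ∈ L := fun x => QuotientGroup.eq_one_iff x
  obtain ⟨S, hES⟩ := hEp.exists_le_sylow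
  set R := (S : Subgroup H) ⊓ M with hR
  have hRS : R ≤ S := inf_le_left
  have hRp : IsPGroup p R := S.2.to_le hRS
  have hMn : M.Normal := pPrimePCore_normal p H
  have hRbn : Rb.Normal := Cfsg.Agent.Lib.Helper1Fitting.pCore_normal p
  have hER : E ≤ normalizer (R : Set H) := by
    refine le_trans (le_inf (le_trans hES le_normalizer) ?_) inf_normalizer_le_normalizer_inf
    rw [normalizer_eq_top]; exact le_top
  have hcopL : (Nat.card L).Coprime p := card_pPrimeCore_coprime p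
  have hcopRL : (Nat.card R).Coprime (Nat.card L) := by
    obtain ⟨k, hk⟩ := IsPGroup.iff_card.mp hRp
    rw [hk]; exact (hcopL.pow_right k).symm
  have hmapR : ∀ xb ∈ Rb, ∃ x ∈ R, π x = xb := exists_mem_sylow_inf S
  set Eb := E.map π with hEbdef
  set Kb := K.map π with hKbdef
  have hEb : IsPGroup p Eb := hEp.map π
  have hKb : (Nat.card Kb).Coprime p := Nat.Coprime.coprime_dvd_left (card_map_dvd _ _) hK
  have hRbp : IsPGroup p Rb := pCore_isPGroup p
  have hcopKR : (Nat.card Kb).Coprime (Nat.card Rb) := by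
    obtain ⟨k, hk⟩ := IsPGroup.iff_card.mp hRbp
    rw [hk]; exact hKb.pow_right k
  have hEKb : Eb ≤ normalizer (Kb : Set (H ⧸ L)) := by
    rw [le_normalizer_iff]
    rintro _ ⟨e, he, rfl⟩ _ ⟨k, hk, rfl⟩
    exact ⟨e * k * e⁻¹, (mem_normalizer_iff.mp (hEK he) k).mp hk, by simp⟩
  have hNRb : normalizer (Rb : Set (H ⧸ L)) = ⊤ := normalizer_eq_top Rb
  apply pq_omega hp2 Eb Kb hEb hKb hEKb _ Rb rfl hRbp (hNRb ▸ le_top) (hNRb ▸ le_top)
  intro xb hxb hxp
  obtain ⟨hxR, hxE⟩ := Subgroup.mem_inf.mp hxb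
  obtain ⟨x, hx, rfl⟩ := hmapR xb hxR
  have hxcE : x ∈ centralizer (E : Set H) := by
    rw [mem_centralizer_iff]
    intro e he
    have h1 : e * x * e⁻¹ * x⁻¹ ∈ R :=
      R.mul_mem ((mem_normalizer_iff.mp (hER he) x).mp hx) (R.inv_mem hx)
    have h2 : e * x * e⁻¹ * x⁻¹ ∈ L := by
      rw [← hπL]
      have h3 : π e * π x = π x * π e := (mem_centralizer_iff.mp hxE) _ ⟨e, he, rfl⟩
      simp only [map_mul, map_inv]
      rw [h3]; group
    have h4 := eq_one_of_mem_of_mem hcopRL h2 h1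
    calc e * x = (e * x * e⁻¹ * x⁻¹) * x * e := by group
      _ = x * e := by rw [h4]; group
  have hxp' : x ^ p = 1 := by
    apply eq_one_of_mem_of_mem hcopRL _ (R.pow_mem hx p)
    rw [← hπL, map_pow]; exact hxp
  have hxEm : x ∈ E := hEfull x hxcE hxp'
  rw [mem_centralizer_iff]
  rintro _ ⟨k, hk, rfl⟩
  have h1 : x * k * x⁻¹ * k⁻¹ ∈ K :=
    K.mul_mem ((mem_normalizer_iff.mp (hEK hxEm) k).mp hk) (K.inv_mem hk)
  have h2 : π (x * k * x⁻¹ * k⁻¹) ∈ Kb := ⟨_, h1, rfl⟩
  have h3 : π (x * k * x⁻¹ * k⁻¹) ∈ Rb := by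
    have e : π (x * k * x⁻¹ * k⁻¹) = π x * (π k * (π x)⁻¹ * (π k)⁻¹) := by
      simp only [map_mul, map_inv]; group
    rw [e]
    exact Rb.mul_mem hxR (hRbn.conj_mem _ (Rb.inv_mem hxR) _)
  have h4 := eq_one_of_mem_of_mem hcopKR h3 h2
  simp only [map_mul, map_inv] at h4
  calc π k * π x = (π x * π k * (π x)⁻¹ * (π k)⁻¹)⁻¹ * (π x * π k) := by group
    _ = π x * π k := by rw [h4]; group

end Cfsg.Agent.Lib.Helper30PQ
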