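import Cfsg.Agent.Lib.Helper30PQ
import Cfsg.Agent.Lib.Helper80PSolv

/-! `p`-solvable groups are `p`-constrained; elementary abelian helpers. -/

set_option autoImplicit false

namespace Cfsg.Agent.Lib.Helper30PQ2

open Subgroup Cfsg
open Cfsg.Agent.Lib.Helper30SZ Cfsg.Agent.Lib.Helper30Constrained

/-- `p`-solvable groups are `p`-constrained -/
theorem isPConstrained_of_isPSolvable {H : Type*} [Group H] [Finite H]
    (p : ℕ) [hp : Fact p.Prime] (hs : IsPSolvable p H) : IsPConstrained p H := by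
  intro P x hx
  obtain ⟨S, hS⟩ := exists_sylow_inf_eq P
  rw [hS] at hx
  show QuotientGroup.mk' (pPrimeCore p H) x ∈ pCore p (H ⧸ pPrimeCore p H)
  apply Cfsg.Agent.Lib.Helper80PSolv.centralizer_pCore_le_of_isPSolvable
    (Cfsg.Agent.Lib.Helper80PSolv.isPSolvable_quotient hp.out hs _)
    (Cfsg.Agent.Lib.Helper60Core.pPrimeCore_quotient_eq_bot p)
  rw [mem_centralizer_iff]
  intro yb hyb
  obtain ⟨y, hy, rfl⟩ := exists_mem_sylow_inf S yb hyb
  have := (mem_centralizer_iff.mp hx) y hy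
  rw [← map_mul, this, map_mul]

variable {G : Type*} [Group G]

theorem elemAb_sup_zpowers {p : ℕ} {E : Subgroup G} (hE : IsElementaryAbelian p E) {x : G}
    (hx : x ∈ centralizer (E : Set G)) (hxp : x ^ p = 1) :
    IsElementaryAbelian p (E ⊔ zpowers x) := by
  have hn : zpowers x ≤ normalizer (E : Set G) := by
    rw [zpowers_le]; exact centralizer_le_normalizer _ hx
  have hcomm : ∀ e ∈ E, Commute e x := fun e he => (mem_centralizer_iff.mp hx) e he
  have hEE : ∀ e ∈ E, ∀ f ∈ E, Commute e f := fun e he f hf =>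
    congrArg Subtype.val (hE.1.is_comm.comm ⟨e, he⟩ ⟨f, hf⟩)
  have hform : ∀ u ∈ E ⊔ zpowers x, ∃ e ∈ E, ∃ i : ℤ, u = e * x ^ i := by
    intro u hu
    obtain ⟨e, he, a, ha, rfl⟩ := (mem_sup_iff hn).mp hu
    obtain ⟨i, rfl⟩ := mem_zpowers_iff.mp ha
    exact ⟨e, he, i, rfl⟩
  refine ⟨⟨⟨fun u v => ?_⟩⟩, ?_⟩
  · obtain ⟨e, he, i, hu⟩ := hform u u.2
    obtain ⟨f, hf, j, hv⟩ := hform v v.2
    apply Subtype.ext
    show (u : G) * v = v * u
    rw [hu, hv]
    have c1 : Commute e (f * x ^ j) := (hEE e he f hf).mul_right ((hcomm e he).zpow_right j)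
    have c2 : Commute (x ^ i) (f * x ^ j) :=
      ((hcomm f hf).symm.zpow_left i).mul_right ((Commute.refl x).zpow_zpow i j)
    exact (c1.mul_left c2).eq
  · intro u hu
    obtain ⟨e, he, i, rfl⟩ := hform u hu
    rw [((hcomm e he).zpow_right i).mul_pow, hE.2 e he, one_mul, ← zpow_natCast, ← zpow_mul,
      mul_comm, zpow_mul, zpow_natCast, hxp, one_zpow]

theorem mem_of_maximal_elemAb {p : ℕ} {E : Subgroup G} (hE : IsElementaryAbelian p E)
    (hmax : ∀ B : Subgroup G, IsElementaryAbelian p B → E ≤ B → B = E) :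
    ∀ x ∈ centralizer (E : Set G), x ^ p = 1 → x ∈ E := by
  intro x hx hxp
  have h := hmax _ (elemAb_sup_zpowers hE hx hxp) le_sup_left
  rw [← h]
  exact le_sup_right (a := E) (mem_zpowers x)

end Cfsg.Agent.Lib.Helper30PQ2
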