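import Mathlib
import Cfsg.Agent.Lib.Helper20SNDefs

set_option autoImplicit false

namespace Cfsg.Agent.Lib.Helper30SNTwo

open Cfsg.Agent.Lib.Helper20SNDefs

local notation "SL2" F => Matrix.SpecialLinearGroup (Fin 2) F

theorem solvable_of_card_six {G : Type*} [Group G] (h : Nat.card G = 6) : Group.IsSolvable G := by
  have : Finite G := Nat.finite_of_card_ne_zero (by omega)
  have : Fact (Nat.Prime 3) := ⟨by norm_num⟩
  have : Fact (Nat.Prime 2) := ⟨by norm_num⟩
  obtain ⟨P⟩ : Nonempty (Sylow 3 G) := inferInstance
  have hnd : ¬ 3 ∣ (P : Subgroup G).index := P.not_dvd_index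
  have hmul := (P : Subgroup G).card_mul_index
  rw [h] at hmul
  obtain ⟨k, hk⟩ := (IsPGroup.iff_card.mp P.2)
  have hidx : (P : Subgroup G).index = 2 := by
    have h1 : (P : Subgroup G).index ∣ 6 := ⟨_, by rw [mul_comm]; exact hmul.symm⟩
    have h2 : Nat.card (P : Subgroup G) ∣ 6 := ⟨_, hmul.symm⟩
    have hle : (P : Subgroup G).index ≤ 6 := Nat.le_of_dvd (by norm_num) h1
    rw [hk] at hmul h2
    have hk1 : k ≤ 1 := by
      by_contra hcon
      have : 3 ^ 2 ∣ 3 ^ k := pow_dvd_pow 3 (by omega)
      have := this.trans h2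
      omega
    interval_cases k
    · simp at hmul
      rw [hmul] at hnd
      exact absurd (by norm_num) hnd
    · omega
  have hn : (P : Subgroup G).Normal := Subgroup.normal_of_index_eq_two hidx
  have hs1 : Group.IsSolvable (P : Subgroup G) := by
    have := P.2.isNilpotent
    infer_instance
  have hs2 : Group.IsSolvable (G ⧸ (P : Subgroup G)) := by
    have hq : IsPGroup 2 (G ⧸ (P : Subgroup G)) := by
      apply IsPGroup.of_card (n := 1)
      rw [pow_one, ← hidx]
      rfl
    have := hq.isNilpotent
    infer_instance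
  exact Group.isSolvable_of_ker_le_range (P : Subgroup G).subtype (QuotientGroup.mk' (P : Subgroup G))
    (by simp)

/-- piece `two` -/
theorem solvable_of_card_two (F : Type*) [Field F] [Fintype F] (h : Fintype.card F = 2) :
    Group.IsSolvable (SL2 F) := by
  classical
  have hc : Nat.card (GL (Fin 2) F) = 6 := by
    rw [Matrix.card_GL_field]
    simp [Fin.prod_univ_two, h]
  have := solvable_of_card_six hc
  exact Group.isSolvable_of_isSolvable_injective (f := Matrix.SpecialLinearGroup.toGL)
    (Matrix.SpecialLinearGroup.toGL_injective)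

end Cfsg.Agent.Lib.Helper30SNTwo
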