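import Cfsg.Agent.Lib.Helper30Thompson
import Cfsg.Agent.S1280

/-! Solvable signalizer functors: the family, transitivity. -/

set_option autoImplicit false

namespace Cfsg.Agent.Lib.Helper30Sig

open Subgroup Cfsg
open Cfsg.Agent.Lib.Helper30SZ Cfsg.Agent.Lib.Helper30Coprime Cfsg.Agent.Lib.Helper30Trans
open Cfsg.Agent.Lib.Helper30Thompson

variable {G : Type*} [Group G] {p : ℕ} {A : Subgroup G} {θ : G → Subgroup G}

theorem isPGroup_of_elemAb (hA : IsElementaryAbelian p A) : IsPGroup p A := by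
  intro a
  exact ⟨1, Subtype.ext (by simpa using hA.2 a a.2)⟩

theorem coprime_of_not_dvd [Finite G] [hp : Fact p.Prime] (hA : IsElementaryAbelian p A)
    {U : Subgroup G} (hU : ¬ p ∣ Nat.card U) : (Nat.card A).Coprime (Nat.card U) := by
  obtain ⟨k, hk⟩ := IsPGroup.iff_card.mp (isPGroup_of_elemAb hA)
  rw [hk]
  exact Nat.Coprime.pow_left k ((Nat.Prime.coprime_iff_not_dvd hp.out).mpr hU)

theorem fam_normalizer {U : Subgroup G} (hU : U ∈ signalizerFamily p A θ) :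
    A ≤ normalizer (U : Set G) := le_normalizer_iff.mpr hU.2.2.1

theorem fam_of_le {X Y : Subgroup G} (hX : X ∈ signalizerFamily p A θ) (hYX : Y ≤ X)
    (hAY : A ≤ normalizer (Y : Set G)) : Y ∈ signalizerFamily p A θ := by
  refine ⟨solvable_of_le hX.1 hYX, fun h => hX.2.1 (dvd_trans h (card_dvd_of_le hYX)),
    le_normalizer_iff.mp hAY, ?_⟩
  intro a ha ha1
  exact le_trans (inf_le_inf_right _ hYX) (hX.2.2.2 a ha ha1)

theorem theta_mem_fam (hθ : IsSolvableSignalizerFunctor p A θ) {a : G} (ha : a ∈ A) (ha1 : a ≠ 1) :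
    θ a ∈ signalizerFamily p A θ :=
  ⟨hθ.2 a ha ha1, hθ.1.2.1 a ha ha1, hθ.1.2.2.1 a ha ha1, fun b hb hb1 => hθ.1.2.2.2 a ha ha1 b hb hb1⟩

theorem signalizerInf_le {B : Subgroup G} {a : G} (ha : a ∈ B) (ha1 : a ≠ 1) :
    signalizerInf B θ ≤ θ a :=
  iInf_le (fun a : {a : G // a ∈ B ∧ a ≠ 1} => θ (a : G)) ⟨a, ha, ha1⟩

theorem le_signalizerInf {B X : Subgroup G} (h : ∀ a ∈ B, a ≠ 1 → X ≤ θ a) :
    X ≤ signalizerInf B θ :=
  le_iInf (fun a => h a.1 a.2.1 a.2.2)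

theorem centralizer_le_centralizer_singleton {B : Subgroup G} {a : G} (ha : a ∈ B) :
    centralizer (B : Set G) ≤ centralizer ({a} : Set G) :=
  centralizer_le (by intro x hx; rw [Set.mem_singleton_iff.mp hx]; exact ha)

theorem fam_inf_centralizer_le {X B : Subgroup G} (hX : X ∈ signalizerFamily p A θ) (hB : B ≤ A) :
    X ⊓ centralizer (B : Set G) ≤ signalizerInf B θ :=
  le_signalizerInf (fun a ha ha1 =>
    le_trans (inf_le_inf_left _ (centralizer_le_centralizer_singleton ha)) (hX.2.2.2 a (hB ha) ha1))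

theorem signalizerInf_le_centralizer (hθ : IsSignalizerFunctor p A θ) {B : Subgroup G}
    (hB : B ≤ A) : signalizerInf B θ ≤ centralizer (B : Set G) := by
  intro x hx
  rw [mem_centralizer_iff]
  intro a ha
  by_cases ha1 : a = 1
  · rw [ha1]; simp
  · exact (mem_centralizer_singleton_iff.mp (hθ.1 a (hB ha) ha1 (signalizerInf_le ha ha1 hx))).symm

theorem cj_mem_fam (hθ : IsSignalizerFunctor p A θ) {k : G} (hk : k ∈ signalizerInf A θ)
    {Q : Subgroup G} (hQ : Q ∈ signalizerFamily p A θ) : cj k Q ∈ signalizerFamily p A θ := by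
  have hkc : k ∈ centralizer (A : Set G) := signalizerInf_le_centralizer hθ le_rfl hk
  refine ⟨?_, ?_, le_normalizer_iff.mp (le_normalizer_cj hkc (fam_normalizer hQ)), ?_⟩
  · have := hQ.1
    exact Group.isSolvable_of_surjective
      (f := ((MulAut.conj k).toMonoidHom.subgroupMap Q)) (MonoidHom.subgroupMap_surjective _ _)
  · rw [card_cj]; exact hQ.2.1
  · intro a ha ha1 x hx
    obtain ⟨h1, h2⟩ := Subgroup.mem_inf.mp hx
    rw [mem_cj] at h1
    have hka : k ∈ θ a := signalizerInf_le ha ha1 hk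
    have hkca : k ∈ centralizer ({a} : Set G) := centralizer_le_centralizer_singleton ha hkc
    have h3 : k⁻¹ * x * k ∈ Q ⊓ centralizer ({a} : Set G) :=
      Subgroup.mem_inf.mpr ⟨h1, mul_mem (mul_mem (inv_mem hkca) h2) hkca⟩
    have h4 := hQ.2.2.2 a ha ha1 h3
    have h5 : k * (k⁻¹ * x * k) * k⁻¹ ∈ θ a := mul_mem (mul_mem hka h4) (inv_mem hka)
    simpa [mul_assoc] using h5

/-- the `q`-members of the family -/
def qFam (p : ℕ) (A : Subgroup G) (θ : G → Subgroup G) (q : ℕ) : Set (Subgroup G) :=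
  {Q | Q ∈ signalizerFamily p A θ ∧ IsPGroup q Q}

/-- **Transitivity theorem for solvable signalizer functors.** -/
theorem sig_transitivity [Finite G] [Fact p.Prime] (hA : IsElementaryAbelian p A)
    (hA3 : p ^ 3 ≤ Nat.card A) (hθ : IsSolvableSignalizerFunctor p A θ) (q : ℕ) [Fact q.Prime] :
    ∀ Q₁ Q₂, IsMaxIn (qFam p A θ q) Q₁ → IsMaxIn (qFam p A θ q) Q₂ →
      Rel (signalizerInf A θ) Q₁ Q₂ := by
  have hp : p.Prime := Fact.out
  have hA2 : p ^ 2 ≤ Nat.card A := le_trans (Nat.pow_le_pow_right hp.pos (by norm_num)) hA3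
  by_cases hqp : q = p
  · -- then all members are trivial
    intro Q₁ Q₂ h₁ h₂
    have triv : ∀ Q, IsMaxIn (qFam p A θ q) Q → Q = ⊥ := by
      intro Q hQ
      rcases (hqp ▸ hQ.1.2 : IsPGroup p Q).card_eq_or_dvd with h | h
      · exact card_eq_one.mp h
      · exact absurd h hQ.1.1.2.1
    rw [triv Q₁ h₁, triv Q₂ h₂]
    exact Rel.refl _ _
  apply rel_of_link_family
  · intro k hk Q hQ
    exact ⟨cj_mem_fam hθ.1 hk hQ.1, hQ.2.map _⟩
  intro Q₁ Q₂ h₁ h₂ hne
  set D := Q₁ ⊓ Q₂ with hD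
  have hq₁ : IsPGroup q Q₁ := h₁.1.2
  have hq₂ : IsPGroup q Q₂ := h₂.1.2
  have hE₁ : A ≤ normalizer (Q₁ : Set G) := fam_normalizer h₁.1.1
  have hE₂ : A ≤ normalizer (Q₂ : Set G) := fam_normalizer h₂.1.1
  have hD₁ : D ≠ Q₁ := by
    intro h
    have : Q₁ ≤ Q₂ := h ▸ inf_le_right
    exact hne (h₁.2 Q₂ h₂.1 this).symm
  have hD₂ : D ≠ Q₂ := by
    intro h
    have : Q₂ ≤ Q₁ := h ▸ inf_le_left
    exact hne (h₂.2 Q₁ h₁.1 this)
  obtain ⟨a, haA, ha1, hn₁, hn₂⟩ := Cfsg.Agent.Lib.Helper30Rank3.exists_common_elt_normalizer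
    hA.1 hA.2 hA3 hqp hq₁ hq₂ hE₁ hE₂ hD₁ hD₂
  have hED : A ≤ normalizer (D : Set G) := le_trans (le_inf hE₁ hE₂) inf_normalizer_le_normalizer_inf
  have hEa : A ≤ centralizer ({a} : Set G) := by
    intro e he
    rw [mem_centralizer_singleton_iff]
    exact congrArg Subtype.val (hA.1.is_comm.comm ⟨e, he⟩ ⟨a, haA⟩)
  have hDfam : D ∈ signalizerFamily p A θ := fam_of_le h₁.1.1 inf_le_left hED
  set Y := θ a ⊓ normalizer (D : Set G) with hY
  have hEY : A ≤ normalizer (Y : Set G) :=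
    le_trans (le_inf (fam_normalizer (theta_mem_fam hθ haA ha1)) (le_trans hED le_normalizer))
      inf_normalizer_le_normalizer_inf
  have hYfam : Y ∈ signalizerFamily p A θ := fam_of_le (theta_mem_fam hθ haA ha1) inf_le_left hEY
  set W := D ⊔ Y with hW
  have hWfam : W ∈ signalizerFamily p A θ :=
    Cfsg.Agent.S1280.result p A hA hA2 θ hθ D Y hDfam hYfam inf_le_right
  have hstep : ∀ Q : Subgroup G, Q ∈ signalizerFamily p A θ →
      A ≤ normalizer ((normalizer (D : Set G) ⊓ Q ⊓ centralizer {a} : Subgroup G) : Set G) ∧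
      normalizer (D : Set G) ⊓ Q ⊓ centralizer {a} ≤ Y := by
    intro Q hQ
    refine ⟨le_trans (le_inf (Cfsg.Agent.Lib.Helper30Rank3.le_normalizer_normalizer_inf hED
      (fam_normalizer hQ)) (le_trans hEa le_normalizer)) inf_normalizer_le_normalizer_inf,
      le_inf ?_ (le_trans inf_le_left inf_le_left)⟩
    exact le_trans (inf_le_inf_right _ inf_le_right) (hQ.2.2.2 a haA ha1)
  obtain ⟨hEY₁, hY₁⟩ := hstep Q₁ h₁.1.1
  obtain ⟨hEY₂, hY₂⟩ := hstep Q₂ h₂.1.1
  have hlt : ∀ Y' : Subgroup G, ¬ Y' ≤ D → D < D ⊔ Y' := by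
    intro Y' h
    refine lt_of_le_of_ne le_sup_left ?_
    intro h'
    exact h (h' ▸ le_sup_right)
  obtain ⟨S, c, hc, hSW, hSq, hSE, hS₁, hS₂⟩ := link_coprime (q := q) (fam_normalizer hWfam)
    (coprime_of_not_dvd hA hWfam.2.1) (Or.inr hWfam.1)
    (Y₁ := D ⊔ (normalizer (D : Set G) ⊓ Q₁ ⊓ centralizer {a}))
    (Y₂ := D ⊔ (normalizer (D : Set G) ⊓ Q₂ ⊓ centralizer {a}))
    (sup_le_sup_left hY₁ D)
    (hq₁.to_le (sup_le inf_le_left (le_trans inf_le_left inf_le_right)))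
    (le_normalizer_sup hED hEY₁)
    (sup_le_sup_left hY₂ D)
    (hq₂.to_le (sup_le inf_le_right (le_trans inf_le_left inf_le_right)))
    (le_normalizer_sup hED hEY₂)
  exact ⟨_, _, S, c, fam_inf_centralizer_le hWfam le_rfl hc, hlt _ hn₁,
    sup_le inf_le_left (le_trans inf_le_left inf_le_right),
    hlt _ hn₂, sup_le inf_le_right (le_trans inf_le_left inf_le_right),
    ⟨fam_of_le hWfam hSW hSE, hSq⟩, hS₁, hS₂⟩

end Cfsg.Agent.Lib.Helper30Sig
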