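import Mathlib
import Cfsg.Agent.Lib.Helper39Trace
import Cfsg.Agent.Lib.Helper39Engel

set_option autoImplicit false

/-! Trace argument for `p = 2` with quadratic subgroups having no orbit of length two. -/

namespace Cfsg.Agent.Lib.Helper30WC2

open Cfsg Finset Cfsg.Agent.Lib.Helper39Trace

section orbits

variable {B Ω V : Type*} [Group B] [Fintype Ω] [MulAction B Ω] [CommGroup V]

open Classical in
theorem prod_mem_of_orbits (Y : Subgroup V) (g : Ω → V) (𝒜 : Finset Ω)
    (h𝒜 : ∀ (b : B) (ω : Ω), ω ∈ 𝒜 → b • ω ∈ 𝒜)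
    (h : ∀ ω ∈ 𝒜, ∏ ω' with ω' ∈ MulAction.orbit B ω, g ω' ∈ Y) : ∏ ω ∈ 𝒜, g ω ∈ Y := by
  have : Fintype (MulAction.orbitRel.Quotient B Ω) := Fintype.ofFinite _
  let π : Ω → MulAction.orbitRel.Quotient B Ω := fun ω => Quotient.mk'' ω
  have hπ : ∀ ω ω', π ω = π ω' ↔ ω ∈ MulAction.orbit B ω' := by
    intro ω ω'
    exact Quotient.eq''
  rw [← Finset.prod_fiberwise 𝒜 π g]
  apply Subgroup.prod_mem
  intro q _
  by_cases hq : ∃ ω ∈ 𝒜, π ω = q
  · obtain ⟨ω0, hω0, rfl⟩ := hq
    have h1 : (𝒜.filter (fun ω => π ω = π ω0)) = univ.filter (fun ω => ω ∈ MulAction.orbit B ω0) := by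
      ext ω
      simp only [mem_filter, mem_univ, true_and, hπ]
      constructor
      · exact fun h => h.2
      · intro h
        refine ⟨?_, h⟩
        obtain ⟨b, rfl⟩ := h
        exact h𝒜 b ω0 hω0
    rw [h1]
    exact h ω0 hω0
  · have h1 : (𝒜.filter (fun ω => π ω = q)) = ∅ := by
      rw [Finset.filter_eq_empty_iff]
      intro ω hω hωq
      exact hq ⟨ω, hω, hωq⟩
    rw [h1, prod_empty]
    exact one_mem _

end orbits

section orbit

variable {E Ω V : Type*} [Group E] [Finite E] [Fintype Ω] [MulAction E Ω] [CommGroup V]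
  [MulDistribMulAction E V]

open Classical in
theorem prod_orbit_mem2 (hE : IsPGroup 2 E) (𝓢 : Set E) (h𝓢 : Subgroup.closure 𝓢 = ⊤) (X Y : Subgroup V)
    (f : Ω → V) (hf : ∀ (a : E) (ω : Ω), f (a • ω) = a • f ω) (hfX : ∀ ω, f ω ∈ X)
    (hgood : ∀ e ∈ 𝓢, (∀ u ∈ X, u * (e • u) ∈ Y) ∨ ∃ B : Subgroup E, e ∈ B ∧
      (∀ a ∈ B, ∀ b ∈ B, a * b = b * a) ∧
      (∀ a ∈ B, ∀ b ∈ B, ∀ u ∈ X, u * (a • u) * (b • u) * ((a * b) • u) ∈ Y) ∧
      (∀ ω : Ω, ∀ e' ∈ B, (∀ b ∈ B, b • ω = ω ∨ (e'⁻¹ * b) • ω = ω) → e' • ω = ω))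
    (ω1 : Ω) (h1 : ¬ ∀ a : E, a • ω1 = ω1) :
    ∏ ω with ω ∈ MulAction.orbit E ω1, f ω ∈ Y := by
  have hp : Fact (Nat.Prime 2) := ⟨Nat.prime_two⟩
  have hF : MulAction.stabilizer E ω1 ≠ ⊤ := by
    intro h
    apply h1
    intro a
    have : a ∈ MulAction.stabilizer E ω1 := by rw [h]; trivial
    exact this
  obtain ⟨F1, hle, hnorm, hidx⟩ := exists_normal_index_p hE _ hF
  have hex : ∃ e ∈ 𝓢, e ∉ F1 := by
    by_contra hcon
    have h2 : Subgroup.closure 𝓢 ≤ F1 := by
      rw [Subgroup.closure_le]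
      intro e he
      by_contra h3
      exact hcon ⟨e, he, h3⟩
    rw [h𝓢, top_le_iff] at h2
    rw [h2, Subgroup.index_top] at hidx
    omega
  obtain ⟨e, he, heF⟩ := hex
  have : Fintype (E ⧸ F1) := Fintype.ofFinite _
  have hcard : Nat.card (E ⧸ F1) = 2 := hidx
  have hne : (QuotientGroup.mk e : E ⧸ F1) ≠ 1 := by
    rwa [Ne, QuotientGroup.eq_one_iff]
  have hord : orderOf (QuotientGroup.mk e : E ⧸ F1) = 2 := by
    apply orderOf_eq_prime _ hne
    rw [← hcard]
    exact pow_card_eq_one'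
  let κ : Ω → E ⧸ F1 := fun ω =>
    if h : ω ∈ MulAction.orbit E ω1 then QuotientGroup.mk (Classical.choose h) else 1
  have hκ : ∀ a : E, κ (a • ω1) = QuotientGroup.mk a := by
    intro a
    have h : a • ω1 ∈ MulAction.orbit E ω1 := ⟨a, rfl⟩
    have h2 : κ (a • ω1) = QuotientGroup.mk (Classical.choose h) := dif_pos h
    rw [h2, QuotientGroup.eq]
    apply hle
    rw [MulAction.mem_stabilizer_iff, mul_smul, inv_smul_eq_iff]
    exact (Classical.choose_spec h).symm
  have hκ2 : ∀ (a : E), ∀ ω ∈ MulAction.orbit E ω1, κ (a • ω) = QuotientGroup.mk a * κ ω := by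
    rintro a _ ⟨c, rfl⟩
    change κ (a • c • ω1) = _ * κ (c • ω1)
    rw [← mul_smul, hκ, hκ]
    rfl
  have horb : ∀ (a : E) (ω : Ω), a • ω ∈ MulAction.orbit E ω1 ↔ ω ∈ MulAction.orbit E ω1 := by
    intro a ω
    constructor
    · intro h
      have := MulAction.mapsTo_smul_orbit a⁻¹ ω1 h
      simpa using this
    · intro h
      exact MulAction.mapsTo_smul_orbit a ω1 h
  rw [prod_coloring (univ.filter (fun ω => ω ∈ MulAction.orbit E ω1)) f hf e ?_ κ (QuotientGroup.mk e) ?_ hord
    (fun q => mem_powers_of_prime_card hcard hne)]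
  rotate_left
  · intro ω
    simp only [mem_filter, mem_univ, true_and]
    exact horb e ω
  · intro ω hω
    simp only [mem_filter, mem_univ, true_and] at hω
    exact hκ2 e ω hω
  set 𝒜 := (univ.filter (fun ω => ω ∈ MulAction.orbit E ω1)).filter (fun ω => κ ω = 1) with h𝒜
  have h𝒜mem : ∀ ω, ω ∈ 𝒜 ↔ ω ∈ MulAction.orbit E ω1 ∧ κ ω = 1 := by
    intro ω
    simp [h𝒜]
  rw [prod_range_succ, prod_range_one, pow_zero, one_smul, pow_one]
  rcases hgood e he with hG1 | ⟨B, heB, hBc, hBq, hBβ⟩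
  · exact hG1 _ (Subgroup.prod_mem _ (fun ω _ => hfX ω))
  · rw [smul_prod', ← prod_mul_distrib]
    set B1 : Subgroup E := B ⊓ F1 with hB1
    let g : Ω → V := fun ω => f ω * e • f ω
    let φ : V →* V := MonoidHom.id V * MulDistribMulAction.toMonoidHom V e
    have hφ : ∀ u, φ u = u * e • u := fun u => rfl
    apply prod_mem_of_orbits (B := B1) Y g 𝒜
    · intro b ω hω
      rw [h𝒜mem] at hω ⊢
      refine ⟨(horb (b : E) ω).2 hω.1, ?_⟩
      have h3 := hκ2 (b : E) ω hω.1
      have h4 : (QuotientGroup.mk (b : E) : E ⧸ F1) = 1 := (QuotientGroup.eq_one_iff _).2 b.2.2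
      rw [h4, one_mul, hω.2] at h3
      exact h3
    · intro ω hω
      rw [h𝒜mem] at hω
      apply prod_orbit_mem (E := B1) (p := 2) (hE.to_subgroup B1) Set.univ (by simp) (X.map φ) Y g
      · intro b ω'
        have hbe : e * (b : E) = (b : E) * e := hBc e heB b b.2.1
        change f ((b : E) • ω') * e • f ((b : E) • ω') = (b : E) • (f ω' * e • f ω')
        rw [hf, smul_mul', ← mul_smul, ← mul_smul, hbe]
      · intro ω'
        exact ⟨f ω', hfX ω', rfl⟩
      · rintro b - _ ⟨u, hu, rfl⟩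
        rw [prod_range_succ, prod_range_one, pow_zero, one_smul, pow_one, hφ]
        have h5 := hBq e heB b b.2.1 u hu
        have h6 : u * e • u * b • (u * e • u) = u * e • u * (b : E) • u * (e * (b : E)) • u := by
          have hbe : e * (b : E) = (b : E) * e := hBc e heB b b.2.1
          change u * e • u * (b : E) • (u * e • u) = _
          rw [smul_mul', ← mul_smul, hbe, mul_assoc, mul_assoc, mul_assoc]
        rw [h6]
        exact h5
      · intro hfixed
        have h7 : e • ω = ω := by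
          apply hBβ ω e heB
          intro b hb
          by_cases hbF : b ∈ F1
          · left
            exact hfixed ⟨b, hb, hbF⟩
          · right
            have h8 : e⁻¹ * b ∈ F1 := by
              rw [Subgroup.mul_mem_iff_of_index_two hidx, inv_mem_iff]
              exact ⟨fun h => absurd h heF, fun h => absurd h hbF⟩
            exact hfixed ⟨e⁻¹ * b, B.mul_mem (B.inv_mem heB) hb, h8⟩
        have h9 := hκ2 e ω hω.1
        rw [h7, hω.2, mul_one] at h9
        exact hne h9.symm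

omit [Finite E] [MulDistribMulAction E V] in
open Classical in
theorem prod_div_mem' (Y : Subgroup V) (f : Ω → V)
    (horb : ∀ ω1 : Ω, (¬ ∀ a : E, a • ω1 = ω1) → ∏ ω with ω ∈ MulAction.orbit E ω1, f ω ∈ Y)
    (ω0 : Ω) (h0 : ∀ a : E, a • ω0 = ω0)
    (huniq : ∀ ω, (∀ a : E, a • ω = ω) → ω = ω0) : (∏ ω, f ω) / f ω0 ∈ Y := by
  have : Fintype (MulAction.orbitRel.Quotient E Ω) := Fintype.ofFinite _
  let π : Ω → MulAction.orbitRel.Quotient E Ω := fun ω => Quotient.mk'' ω
  have hπ : ∀ ω ω', π ω = π ω' ↔ ω ∈ MulAction.orbit E ω' := by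
    intro ω ω'
    exact Quotient.eq''
  rw [← Finset.prod_fiberwise univ π f, ← mul_prod_erase univ _ (mem_univ (π ω0))]
  have e0 : ∏ ω with π ω = π ω0, f ω = f ω0 := by
    have : (univ.filter (fun ω => π ω = π ω0)) = {ω0} := by
      ext ω
      simp only [mem_filter, mem_univ, true_and, mem_singleton, hπ]
      constructor
      · rintro ⟨a, rfl⟩; exact h0 a
      · rintro rfl; exact MulAction.mem_orbit_self _
    rw [this, prod_singleton]
  rw [e0, mul_div_cancel_left]
  apply Subgroup.prod_mem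
  intro q hq
  rw [mem_erase] at hq
  obtain ⟨ω1, rfl⟩ : ∃ ω1, π ω1 = q := Quotient.exists_rep q
  have h1 : ¬ ∀ a : E, a • ω1 = ω1 := by
    intro h
    exact hq.1 (by rw [huniq ω1 h])
  have := horb ω1 h1
  simp_rw [hπ]
  exact this

end orbit

section central

open Cfsg.Agent.Lib.Helper39Engel Cfsg.Agent.Lib.Helper39KInfCent Cfsg.Agent.Lib.Helper39Sylow

variable {L : Type*} [Group L]

theorem smul_mk_eq_iff (C : Subgroup L) (b l : L) :
    b • (QuotientGroup.mk l : L ⧸ C) = QuotientGroup.mk l ↔ l⁻¹ * b * l ∈ C := by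
  change (QuotientGroup.mk (b * l) : L ⧸ C) = QuotientGroup.mk l ↔ _
  rw [QuotientGroup.eq, ← inv_mem_iff]
  have : ((b * l)⁻¹ * l)⁻¹ = l⁻¹ * b * l := by group
  rw [this]

theorem central2 [Finite L] (A : Subgroup L) [hAn : A.Normal]
    (hAc : ∀ a ∈ A, ∀ b ∈ A, a * b = b * a) (hAp : IsPGroup 2 A) (C : Subgroup L) (𝓢 : Set L)
    (h𝓢C : ∀ a ∈ 𝓢, a ∈ C) (h𝓢p : IsPGroup 2 (Subgroup.closure 𝓢))
    (hfix : ∀ l : L, (∀ a ∈ 𝓢, l⁻¹ * a * l ∈ C) → l ∈ C)
    (hgood : ∀ e ∈ 𝓢,
      (∀ U V : Subgroup L, IsChiefFactor U V → U ≤ A → ∀ u ∈ U, e * u * e⁻¹ * u⁻¹ ∈ V) ∨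
      ∃ B : Subgroup L, e ∈ B ∧ (∀ b ∈ B, b ∈ 𝓢) ∧ (∀ a ∈ B, ∀ b ∈ B, a * b = b * a) ∧
        (∀ a ∈ B, ∀ b ∈ B, ∀ u ∈ A, a * (b * u * b⁻¹ * u⁻¹) * a⁻¹ = b * u * b⁻¹ * u⁻¹) ∧
        (∀ l : L, ∀ e' ∈ B, (∀ b ∈ B, l⁻¹ * b * l ∈ C ∨ l⁻¹ * (e'⁻¹ * b) * l ∈ C) →
          l⁻¹ * e' * l ∈ C)) :
    ∀ v ∈ A, (∀ c ∈ C, c * v * c⁻¹ = v) → ∀ l : L, l * v * l⁻¹ = v := by
  classical
  have hp : Fact (Nat.Prime 2) := ⟨Nat.prime_two⟩
  let instC : CommGroup A :=
    { (inferInstance : Group A) with mul_comm := fun a b => Subtype.ext (hAc a a.2 b b.2) }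
  let instM : MulDistribMulAction L A := MulDistribMulAction.compHom A (MulAut.conjNormal (H := A))
  have coe_smul : ∀ (l : L) (a : A), ((l • a : A) : L) = l * a * l⁻¹ := fun l a => rfl
  have main : ∀ n : ℕ, ∀ X : Subgroup L, Nat.card X = n → X.Normal → X ≤ A → ∀ v : A, (v : L) ∈ X →
      (∀ c ∈ C, c • v = v) → ∀ l : L, l • v = v := by
    intro n
    induction n using Nat.strong_induction_on with
    | _ n ih =>
    intro X hXn hXnorm hXA v hvX hvC
    by_cases hbot : X = ⊥
    · intro l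
      have : v = 1 := by
        rw [hbot, Subgroup.mem_bot] at hvX
        exact Subtype.ext hvX
      rw [this, smul_one]
    · obtain ⟨Y, ⟨hYn, hYlt⟩, hYmax⟩ := exists_maximal_member (𝒦 := {Y : Subgroup L | Y.Normal ∧ Y < X})
        ⟨⊥, inferInstance, bot_lt_iff_ne_bot.2 hbot⟩
      have hchief : IsChiefFactor X Y := ⟨hYlt, hXnorm, hYn, fun N hN h1 h2 => by
        rcases eq_or_lt_of_le h2 with h3 | h3
        · exact Or.inr h3
        · exact Or.inl (hYmax N ⟨hN, h3⟩ h1)⟩
      have hpow := pow_mem_of_chief hchief (fun a ha b hb => hAc a (hXA ha) b (hXA hb)) (hAp.to_le hXA)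
      set X' := X.subgroupOf A with hX'
      set Y' := Y.subgroupOf A with hY'
      have hpow' : ∀ u ∈ X', u ^ 2 ∈ Y' := fun u hu => hpow _ hu
      have hXsmul : ∀ (l : L), ∀ u ∈ X', l • u ∈ X' := fun l u hu => hXnorm.conj_mem _ hu l
      let _ : Fintype (L ⧸ C) := Fintype.ofFinite _
      let f : L ⧸ C → A := fun q => q.out • v
      have hf : ∀ (l : L) (q : L ⧸ C), f (l • q) = l • f q := fun l q => out_smul_equivariant C hvC l q
      have hfX : ∀ q, f q ∈ X' := fun q => hXnorm.conj_mem _ hvX _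
      set τ := ∏ q, f q with hτdef
      have hτ : ∀ l : L, l • τ = τ := by
        intro l
        rw [hτdef, smul_prod']
        simp_rw [← hf]
        exact Fintype.prod_equiv (MulAction.toPerm l) _ _ (fun q => rfl)
      have hcl : Subgroup.closure 𝓢 ≤ C := by
        rw [Subgroup.closure_le]; exact h𝓢C
      have hf1 : f (QuotientGroup.mk 1) = v := by
        obtain ⟨c, hc⟩ := QuotientGroup.mk_out_eq_mul C 1
        show (QuotientGroup.mk 1 : L ⧸ C).out • v = v
        rw [hc, one_mul]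
        exact hvC c c.2
      have horb : ∀ ω1 : L ⧸ C, (¬ ∀ a : Subgroup.closure 𝓢, a • ω1 = ω1) →
          ∏ ω with ω ∈ MulAction.orbit (Subgroup.closure 𝓢) ω1, f ω ∈ Y' := by
        intro ω1 h1
        apply prod_orbit_mem2 (E := Subgroup.closure 𝓢) h𝓢p (Subtype.val ⁻¹' 𝓢)
          Subgroup.closure_closure_coe_preimage X' Y' f (fun a ω => hf a ω) hfX ?_ ω1 h1
        rintro ⟨e, heE⟩ he
        rcases hgood e he with hG1 | ⟨B, heB, hB𝓢, hBc, hBq, hBβ⟩
        · left
          intro u hu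
          have h2 : (e • u) / u ∈ Y' := by
            have h3 := hG1 X Y hchief hXA u hu
            change ((e • u / u : A) : L) ∈ Y
            rw [div_eq_mul_inv]
            exact h3
          have h4 : u * (e • u) = ((e • u) / u) * u ^ 2 := by
            rw [pow_two, ← mul_assoc, div_mul_cancel, mul_comm]
          change u * (e • u) ∈ Y'
          rw [h4]
          exact Y'.mul_mem h2 (hpow' u hu)
        · right
          refine ⟨B.subgroupOf (Subgroup.closure 𝓢), heB, ?_, ?_, ?_⟩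
          · rintro ⟨a, _⟩ ha ⟨b, _⟩ hb
            exact Subtype.ext (hBc a ha b hb)
          · rintro ⟨a, _⟩ ha ⟨b, _⟩ hb u hu
            change u * (a • u) * (b • u) * ((a * b) • u) ∈ Y'
            set ca := (a • u) / u with hca
            set cb := (b • u) / u with hcb
            have hau : a • u = ca * u := by rw [hca, div_mul_cancel]
            have hbu : b • u = cb * u := by rw [hcb, div_mul_cancel]
            have hacb : a • cb = cb := by
              apply Subtype.ext
              rw [coe_smul]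
              have h5 : ((cb : A) : L) = b * u * b⁻¹ * (u : L)⁻¹ := by
                rw [hcb, div_eq_mul_inv]; rfl
              rw [h5]
              exact hBq a ha b hb u u.2
            have habu : (a * b) • u = cb * (ca * u) := by
              rw [mul_smul, hbu, smul_mul', hacb, hau]
            have h6 : u * (a • u) * (b • u) * ((a * b) • u) = (u * u * ca * cb) ^ 2 := by
              rw [habu, hau, hbu, pow_two]
              simp only [mul_assoc, mul_comm, mul_left_comm]
            rw [h6]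
            apply hpow'
            have hcaX : ca ∈ X' := X'.div_mem (hXsmul a u hu) hu
            have hcbX : cb ∈ X' := X'.div_mem (hXsmul b u hu) hu
            exact X'.mul_mem (X'.mul_mem (X'.mul_mem hu hu) hcaX) hcbX
          · intro ω
            obtain ⟨l, rfl⟩ := QuotientGroup.mk_surjective ω
            rintro ⟨e', _⟩ he' hall
            change e' • (QuotientGroup.mk l : L ⧸ C) = QuotientGroup.mk l
            rw [smul_mk_eq_iff]
            apply hBβ l e' he'
            intro b hb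
            have hbE : b ∈ Subgroup.closure 𝓢 := Subgroup.subset_closure (hB𝓢 b hb)
            rcases hall ⟨b, hbE⟩ hb with h7 | h7
            · left
              rw [← smul_mk_eq_iff]
              exact h7
            · right
              rw [← smul_mk_eq_iff]
              exact h7
      have hmem : τ / f (QuotientGroup.mk 1) ∈ Y' := by
        apply prod_div_mem' (E := Subgroup.closure 𝓢) Y' f horb (QuotientGroup.mk 1)
        · intro a
          show (QuotientGroup.mk ((a : L) * 1) : L ⧸ C) = QuotientGroup.mk 1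
          rw [QuotientGroup.eq]
          simpa using hcl a.2
        · intro ω hω
          obtain ⟨l, rfl⟩ := QuotientGroup.mk_surjective ω
          rw [QuotientGroup.eq]
          have : l ∈ C := by
            apply hfix
            intro a ha
            have h4 := hω ⟨a, Subgroup.subset_closure ha⟩
            have h5 : (QuotientGroup.mk (a * l) : L ⧸ C) = QuotientGroup.mk l := h4
            rw [QuotientGroup.eq] at h5
            have h6 := C.inv_mem h5
            simpa [mul_assoc] using h6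
          simpa using this
      rw [hf1] at hmem
      have hyC : ∀ c ∈ C, c • (τ / v) = τ / v := by
        intro c hc
        rw [smul_div', hτ, hvC c hc]
      have hlt : Nat.card Y < n := by
        rw [← hXn]; exact card_lt_of_lt hYlt
      intro l
      have h7 := ih _ hlt Y rfl hYn (hYlt.le.trans hXA) (τ / v) hmem hyC l
      rw [smul_div', hτ] at h7
      exact (div_right_injective h7)
  intro v hv hvC l
  have := main _ A rfl hAn le_rfl ⟨v, hv⟩ hv (fun c hc => Subtype.ext (hvC c hc)) l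
  exact congrArg Subtype.val this

end central

end Cfsg.Agent.Lib.Helper30WC2
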