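import Mathlib
import Cfsg.Agent.Lib.Helper52FF5
import Cfsg.Agent.Lib.Helper24Section
import Cfsg.Agent.Lib.Helper39Engel

set_option autoImplicit false
set_option linter.unusedSimpArgs false
set_option linter.unusedTactic false

/-! Transvections on a chief factor of an `S₄`-free group act trivially. -/

namespace Cfsg.Agent.Lib.Helper30WC3

open Cfsg Subgroup
open Cfsg.Agent.Lib.Helper52FF2 Cfsg.Agent.Lib.Helper52FF4 Cfsg.Agent.Lib.Helper40Sylow

theorem isPGroup_zpowers {Γ : Type*} [Group Γ] {p k : ℕ} {x : Γ} (h : x ^ p ^ k = 1) :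
    IsPGroup p (zpowers x) := by
  rintro ⟨g, hg⟩
  obtain ⟨n, rfl⟩ := mem_zpowers_iff.mp hg
  refine ⟨k, Subtype.ext ?_⟩
  change (x ^ n) ^ p ^ k = 1
  rw [← zpow_natCast, ← zpow_mul, mul_comm, zpow_mul, zpow_natCast, h, one_zpow]

theorem isPGroup_of_involutions {Γ : Type*} [Group Γ] {t t' : Γ} (ht : t * t = 1) (ht' : t' * t' = 1)
    {k : ℕ} (h : (t * t') ^ 2 ^ k = 1) : IsPGroup 2 (zpowers t ⊔ zpowers t' : Subgroup Γ) := by
  have hti : t⁻¹ = t := inv_eq_of_mul_eq_one_left ht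
  have hti' : t'⁻¹ = t' := inv_eq_of_mul_eq_one_left ht'
  have h1 : IsPGroup 2 (zpowers t) := isPGroup_zpowers (k := 1) (by rw [pow_one, pow_two]; exact ht)
  have h2 : IsPGroup 2 (zpowers (t * t')) := isPGroup_zpowers h
  have h3 : zpowers t ≤ normalizer (zpowers (t * t') : Set Γ) := by
    rw [zpowers_le, mem_normalizer_iff_map_conj_eq, MonoidHom.map_zpowers]
    have : t * (t * t') * t⁻¹ = (t * t')⁻¹ := by
      rw [mul_inv_rev, hti, hti', ← mul_assoc, ht, one_mul]
    change zpowers (t * (t * t') * t⁻¹) = _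
    rw [this, zpowers_inv]
  refine (h1.to_sup_of_normal_right' h2 h3).to_le (sup_le le_sup_left ?_)
  rw [zpowers_le]
  have hmem : t * (t * t') ∈ zpowers t ⊔ zpowers (t * t') :=
    Subgroup.mul_mem _ (le_sup_left (a := zpowers t) (mem_zpowers t))
      (le_sup_right (a := zpowers t) (mem_zpowers _))
  rwa [← mul_assoc, ht, one_mul] at hmem

section T1

variable {V : Type*} [CommGroup V]

theorem trans_form (hV : ∀ v : V, v * v = 1) (t : MulAut V)
    (h2 : ∀ v w, t v = v ∨ t w = w ∨ t (v * w) = v * w) {v0 : V} (hv0 : t v0 ≠ v0) :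
    ∀ v, t v = v ∨ t v = (t v0 * v0) * v := by
  intro v
  rcases h2 v v0 with h | h | h
  · left; exact h
  · exact absurd h hv0
  · right
    rw [map_mul] at h
    calc t v = t v * (t v0 * t v0) := by rw [hV, mul_one]
      _ = (t v * t v0) * t v0 := by rw [mul_assoc]
      _ = v * v0 * t v0 := by rw [h]
      _ = _ := by simp only [mul_assoc, mul_comm, mul_left_comm]

theorem trans_sq (t : MulAut V)
    (h2 : ∀ v w, t v = v ∨ t w = w ∨ t (v * w) = v * w) : t * t = 1 := by
  ext v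
  change t (t v) = v
  by_cases hv : t v = v
  · rw [hv, hv]
  · rcases h2 v (t v) with h | h | h
    · exact absurd h hv
    · exact absurd (t.injective h) hv
    · rw [map_mul] at h
      have : t (t v) * t v = v * t v := by rw [mul_comm]; exact h
      exact mul_right_cancel this

theorem pow_four (hV : ∀ v : V, v * v = 1) (t t' : MulAut V) (c c' : V)
    (ht : ∀ v, t v = v ∨ t v = c * v) (ht' : ∀ v, t' v = v ∨ t' v = c' * v)
    (htc : t c = c) (htc' : t c' = c') (ht'c' : t' c' = c') : (t * t') ^ 2 ^ 2 = 1 := by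
  have hV' : ∀ a b : V, a * (a * b) = b := fun a b => by rw [← mul_assoc, hV, one_mul]
  have hu2 : ∀ v, t (t' (t (t' v))) = v ∨ t (t' (t (t' v))) = c' * v := by
    intro v
    rcases ht' v with h1 | h1 <;> rcases ht v with h2 | h2 <;> rcases ht' c with h3 | h3 <;>
      simp only [h1, h2, h3, map_mul, htc', ht'c', htc] <;>
      first
        | (left; simp only [mul_assoc, mul_comm, mul_left_comm, hV, hV', mul_one, one_mul]; done)
        | (right; simp only [mul_assoc, mul_comm, mul_left_comm, hV, hV', mul_one, one_mul])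
  have hc2 : t (t' (t (t' c'))) = c' := by rw [ht'c', htc', ht'c', htc']
  ext v
  have h4 : ((t * t') ^ 2 ^ 2) v = t (t' (t (t' (t (t' (t (t' v))))))) := by
    norm_num [pow_succ, MulAut.mul_apply]
  rw [h4, MulAut.one_apply]
  rcases hu2 v with h | h
  · rw [h, h]
  · rw [h, map_mul, map_mul, map_mul, map_mul, hc2, h, hV']

theorem exists_S3_of_transvection [Finite V] (hV : ∀ v : V, v * v = 1) (Λ : Subgroup (MulAut V))
    (hirr : ∀ F : Subgroup V, (∀ s ∈ Λ, ∀ f ∈ F, s f ∈ F) → F = ⊥ ∨ F = ⊤) (t : MulAut V)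
    (htΛ : t ∈ Λ) (ht1 : t ≠ 1) (h2 : ∀ v w, t v = v ∨ t w = w ∨ t (v * w) = v * w) :
    ∃ t' ∈ Λ, ∃ w₁ w₂ : V, w₁ ≠ 1 ∧ w₂ ≠ 1 ∧ w₁ ≠ w₂ ∧ t w₁ = w₁ ∧ t w₂ = w₁ * w₂ ∧
      t' w₁ = w₁ * w₂ ∧ t' w₂ = w₂ := by
  have hp : Fact (Nat.Prime 2) := ⟨Nat.prime_two⟩
  by_contra hcon
  push Not at hcon
  obtain ⟨v0, hv0⟩ : ∃ v0, t v0 ≠ v0 := by
    by_contra h
    push Not at h
    exact ht1 (by ext v; exact h v)
  have hgen : ∀ (s : MulAut V) (u0 : V), (∀ v w, s v = v ∨ s w = w ∨ s (v * w) = v * w) → s u0 ≠ u0 →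
      s * s = 1 ∧ (∀ v, s v = v ∨ s v = (s u0 * u0) * v) ∧ s (s u0 * u0) = s u0 * u0 ∧
        s u0 * u0 ≠ 1 := by
    intro s u0 hs hu0
    have hss := trans_sq s hs
    have hss' : s (s u0) = u0 := by
      have := congrArg (fun f : MulAut V => f u0) hss
      exact this
    refine ⟨hss, trans_form hV s hs hu0, ?_, ?_⟩
    · rw [map_mul, hss', mul_comm]
    · intro h
      apply hu0
      calc s u0 = s u0 * (u0 * u0) := by rw [hV, mul_one]
        _ = u0 := by rw [← mul_assoc, h, one_mul]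
  obtain ⟨htt, hform, htc, hc1⟩ := hgen t v0 h2 hv0
  set c := t v0 * v0 with hc
  have hP : ∀ g ∈ Λ, IsPGroup 2 (zpowers t ⊔ cj g (zpowers t) : Subgroup (MulAut V)) := by
    intro g hg
    set t' := g * t * g⁻¹ with ht'
    have hcj : cj g (zpowers t) = zpowers t' := by
      change Subgroup.map _ _ = _
      rw [MonoidHom.map_zpowers]
      rfl
    rw [hcj]
    have ht'app : ∀ v, t' v = g (t (g⁻¹ v)) := fun v => rfl
    have h2' : ∀ v w, t' v = v ∨ t' w = w ∨ t' (v * w) = v * w := by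
      intro v w
      have e : ∀ x, t (g⁻¹ x) = g⁻¹ x → t' x = x := by
        intro x hx
        rw [ht'app, hx]; simp
      rcases h2 (g⁻¹ v) (g⁻¹ w) with h | h | h
      · exact Or.inl (e v h)
      · exact Or.inr (Or.inl (e w h))
      · refine Or.inr (Or.inr (e _ ?_))
        rw [map_mul]; exact h
    have hv0' : t' (g v0) ≠ g v0 := by
      rw [ht'app]
      intro h
      apply hv0
      have h3 := g.injective h
      simpa using h3
    obtain ⟨htt', hform', ht'c', hc1'⟩ := hgen t' (g v0) h2' hv0'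
    set c' := t' (g v0) * g v0 with hc'
    have ht'Λ : t' ∈ Λ := Λ.mul_mem (Λ.mul_mem hg htΛ) (Λ.inv_mem hg)
    by_cases hA : t c' = c'
    · exact isPGroup_of_involutions htt htt' (pow_four hV t t' c c' hform hform' htc hA ht'c')
    · by_cases hB : t' c = c
      · rw [sup_comm]
        exact isPGroup_of_involutions htt' htt (pow_four hV t' t c' c hform' hform ht'c' hB htc)
      · exfalso
        have h5 : t c' = c * c' := (hform c').resolve_left hA
        have h6 : t' c = c * c' := by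
          rw [(hform' c).resolve_left hB, mul_comm]
        refine hcon t' ht'Λ c c' hc1 hc1' ?_ htc h5 h6 ht'c'
        intro h
        apply hA
        rw [← h]; exact htc
  obtain ⟨N, hNΛ, hΛN, hN2, htN⟩ := baer_suzuki_rel Λ (zpowers t) (zpowers_le.mpr htΛ)
    (isPGroup_zpowers (k := 1) (by rw [pow_one, pow_two]; exact htt)) hP
  have hFinv : ∀ s ∈ Λ, ∀ f ∈ fix N, s f ∈ fix N := by
    intro s hs f hf n hn
    have h3 : s⁻¹ * n * s⁻¹⁻¹ ∈ N := (mem_normalizer_iff.mp (hΛN (Λ.inv_mem hs)) n).mp hn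
    have h4 := hf _ h3
    rw [inv_inv] at h4
    change s⁻¹ (n (s f)) = f at h4
    have h5 := congrArg s h4
    simpa using h5
  have hv01 : v0 ≠ 1 := by
    intro h
    apply hv0
    rw [h, map_one]
  have hdvd : 2 ∣ Nat.card V := by
    have h3 : orderOf v0 = 2 := orderOf_eq_prime (by rw [pow_two]; exact hV v0) hv01
    rw [← h3]
    exact orderOf_dvd_natCard v0
  obtain ⟨b, hb, hb1⟩ := hN2.exists_fixed_point_of_prime_dvd_card_of_fixed_point V hdvd
    (a := (1 : V)) (by
      intro n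
      change (n : MulAut V) 1 = 1
      exact map_one _)
  have hbF : b ∈ fix N := fun n hn => hb ⟨n, hn⟩
  rcases hirr (fix N) hFinv with h | h
  · rw [h, mem_bot] at hbF
    exact hb1 hbF.symm
  · apply hv0
    have : v0 ∈ fix N := by rw [h]; exact mem_top _
    exact this t (htN (mem_zpowers t))

end T1

section T2

open Cfsg.Agent.Lib.Helper39Engel Cfsg.Agent.Lib.Helper24Section Cfsg.Agent.Lib.Helper52FF5

theorem chief_centralized_of_transvection {L : Type*} [Group L] [Finite L]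
    (hS4 : ¬ Involves (Equiv.Perm (Fin 4)) L) {X Y : Subgroup L} (hch : IsChiefFactor X Y)
    (hXc : ∀ a ∈ X, ∀ b ∈ X, a * b = b * a) (hXp : IsPGroup 2 X) (a : L) (ha2 : ∃ k : ℕ, a ^ 2 ^ k = 1)
    (h2 : ∀ v ∈ X, ∀ w ∈ X, a * v * a⁻¹ = v ∨ a * w * a⁻¹ = w ∨ a * (v * w) * a⁻¹ = v * w) :
    ∀ u ∈ X, a * u * a⁻¹ * u⁻¹ ∈ Y := by
  have hpow := pow_mem_of_chief hch hXc hXp
  obtain ⟨hlt, hXn, hYn, hmax⟩ := hch
  set π := QuotientGroup.mk' Y with hπ
  have hπs : Function.Surjective π := QuotientGroup.mk'_surjective Y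
  have hπ1 : ∀ x, π x = 1 ↔ x ∈ Y := fun x => QuotientGroup.eq_one_iff x
  set M := X.map π with hM
  have hMn : M.Normal := hXn.map π hπs
  let instC : CommGroup M :=
    { (inferInstance : Group M) with
      mul_comm := by
        rintro ⟨_, x, hx, rfl⟩ ⟨_, y, hy, rfl⟩
        apply Subtype.ext
        change π x * π y = π y * π x
        rw [← map_mul, ← map_mul, hXc x hx y hy] }
  have hV : ∀ v : M, v * v = 1 := by
    rintro ⟨_, x, hx, rfl⟩
    apply Subtype.ext
    change π x * π x = 1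
    rw [← map_mul, hπ1, ← pow_two]
    exact hpow x hx
  let Φ : (L ⧸ Y) →* MulAut M := MulAut.conjNormal
  have hΦ : ∀ (γ : L ⧸ Y) (m : M), ((Φ γ m : M) : L ⧸ Y) = γ * m * γ⁻¹ := fun γ m => rfl
  have hirr : ∀ F : Subgroup M, (∀ s ∈ Φ.range, ∀ f ∈ F, s f ∈ F) → F = ⊥ ∨ F = ⊤ := by
    intro F hF
    set N := (F.map M.subtype).comap π with hN
    have hNn : N.Normal := by
      constructor
      intro n hn l
      obtain ⟨f, hf, hfn⟩ := hn
      refine ⟨Φ (π l) f, hF _ ⟨π l, rfl⟩ f hf, ?_⟩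
      change ((Φ (π l) f : M) : L ⧸ Y) = π (l * n * l⁻¹)
      rw [hΦ, map_mul, map_mul, map_inv]
      have : (f : L ⧸ Y) = π n := hfn
      rw [this]
    have hYN : Y ≤ N := by
      intro y hy
      refine ⟨1, F.one_mem, ?_⟩
      change (1 : L ⧸ Y) = π y
      rw [(hπ1 y).mpr hy]
    have hNX : N ≤ X := by
      intro n hn
      obtain ⟨f, _, hfn⟩ := hn
      obtain ⟨x, hx, hxf⟩ := f.2
      have h3 : π (x⁻¹ * n) = 1 := by
        have : (f : L ⧸ Y) = π n := hfn
        rw [map_mul, map_inv, hxf, this, inv_mul_cancel]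
      have h4 : x⁻¹ * n ∈ X := hlt.le ((hπ1 _).mp h3)
      have h5 := X.mul_mem hx h4
      rwa [mul_inv_cancel_left] at h5
    rcases hmax N hNn hYN hNX with h | h
    · left
      rw [eq_bot_iff]
      rintro ⟨_, x, hx, rfl⟩ hf
      have h3 : x ∈ N := ⟨_, hf, rfl⟩
      rw [h] at h3
      rw [mem_bot]
      apply Subtype.ext
      exact (hπ1 x).mpr h3
    · right
      rw [eq_top_iff]
      rintro ⟨_, x, hx, rfl⟩ -
      have h3 : x ∈ N := by rw [h]; exact hx
      obtain ⟨f, hf, hfx⟩ := h3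
      have : f = ⟨π x, x, hx, rfl⟩ := Subtype.ext hfx
      rw [← this]
      exact hf
  set t := Φ (π a) with ht
  have htfix : ∀ (x : L) (hx : x ∈ X), a * x * a⁻¹ = x → t ⟨π x, x, hx, rfl⟩ = ⟨π x, x, hx, rfl⟩ := by
    intro x hx h
    apply Subtype.ext
    rw [ht, hΦ]
    change π a * π x * (π a)⁻¹ = π x
    rw [← map_inv, ← map_mul, ← map_mul, h]
  by_cases ht1 : t = 1
  · intro u hu
    have h3 : t ⟨π u, u, hu, rfl⟩ = ⟨π u, u, hu, rfl⟩ := by rw [ht1]; rfl
    have h4 := congrArg Subtype.val h3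
    rw [ht, hΦ] at h4
    change π a * π u * (π a)⁻¹ = π u at h4
    rw [← hπ1, map_mul, map_mul, map_mul, map_inv, map_inv, h4, mul_inv_cancel]
  · exfalso
    obtain ⟨_, ⟨γ, rfl⟩, w₁, w₂, hw₁, hw₂, hne, e1, e2, e3, e4⟩ :=
      exists_S3_of_transvection hV Φ.range hirr t ⟨π a, rfl⟩ ht1 (by
        rintro ⟨_, x, hx, rfl⟩ ⟨_, y, hy, rfl⟩
        rcases h2 x hx y hy with h | h | h
        · exact Or.inl (htfix x hx h)
        · exact Or.inr (Or.inl (htfix y hy h))
        · refine Or.inr (Or.inr ?_)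
          have := htfix (x * y) (X.mul_mem hx hy) h
          have e : (⟨π x, x, hx, rfl⟩ * ⟨π y, y, hy, rfl⟩ : M) =
              ⟨π (x * y), x * y, X.mul_mem hx hy, rfl⟩ := by
            apply Subtype.ext
            change π x * π y = π (x * y)
            rw [map_mul]
          rw [e]
          exact this)
    apply hS4
    refine Involves.trans ?_ (involves_quotient Y)
    have hsq : ∀ w : M, (w : L ⧸ Y) * w = 1 := fun w => congrArg Subtype.val (hV w)
    refine involves_S4_of_pair (w₁ : L ⧸ Y) (w₂ : L ⧸ Y) (π a) γ (hsq w₁) (hsq w₂) ?_ ?_ ?_ ?_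
      ?_ ?_ ?_ ?_ ?_
    · exact congrArg Subtype.val (mul_comm w₁ w₂)
    · intro h; exact hw₁ (Subtype.ext h)
    · intro h; exact hw₂ (Subtype.ext h)
    · intro h; exact hne (Subtype.ext h)
    · rw [← hΦ]; exact congrArg Subtype.val e1
    · rw [← hΦ]; exact congrArg Subtype.val e2
    · rw [← hΦ]; exact congrArg Subtype.val e3
    · rw [← hΦ]; exact congrArg Subtype.val e4
    · obtain ⟨k, hk⟩ := ha2
      exact ⟨k, by rw [← map_pow, hk, map_one]⟩

end T2

end Cfsg.Agent.Lib.Helper30WC3
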