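import Mathlib
import Cfsg.Agent.Lib.Helper31Pair3
import Cfsg.Agent.Lib.Helper40Sylow
import Cfsg.Agent.Lib.Helper24Section
import Cfsg.Agent.Lib.Helper14NPS

set_option autoImplicit false

namespace Cfsg.Agent.Lib.Helper31Pair4
open scoped commutatorElement
open Cfsg Cfsg.Agent.Lib.Helper31Pair Cfsg.Agent.Lib.Helper31Pair2 Cfsg.Agent.Lib.Helper31Pair3
  Cfsg.Agent.Lib.Helper40Sylow

local notation "SL2" => Matrix.SpecialLinearGroup (Fin 2)

theorem QPair.ne_bot {p : ℕ} {G : Type*} [Group G] {P : Subgroup G} {x y : G}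
    (h : QPair p P x y) : P ≠ ⊥ := by
  obtain ⟨F, i1, i2, i3, l, R, hl, h1, h2, h3, -, -⟩ := h
  intro hP
  obtain ⟨v, hv⟩ := h3 (Multiplicative.ofAdd ![1, 0])
  have hv1 : v = 1 := by
    have := h1 v _ hv
    rwa [hP, Subgroup.mem_bot] at this
  subst hv1
  have h4 := h2 _ hv
  have h5 : (![1, 0] : Fin 2 → F) = 0 := Multiplicative.ofAdd.injective h4
  have := congrFun h5 0
  simp at this

/-- Frattini lifting of normalizers of `p`-subgroups through an arbitrary epimorphism. -/
theorem exists_lift_normalizer {p : ℕ} [Fact p.Prime] {K X : Type*} [Group K] [Finite K] [Group X]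
    (f : K →* X) (hf : Function.Surjective f) (Q : Subgroup X) (hQ : IsPGroup p Q) :
    ∃ Q₀ : Subgroup K, IsPGroup p Q₀ ∧ Q₀.map f = Q ∧
      ∀ x ∈ Subgroup.normalizer (Q : Set X), ∃ x' ∈ Subgroup.normalizer (Q₀ : Set K), f x' = x := by
  obtain ⟨S₀⟩ : Nonempty (Sylow p (Q.comap f)) := inferInstance
  have hf' : Function.Surjective (f.subgroupComap Q) :=
    f.subgroupComap_surjective_of_surjective Q hf
  have hfin : Finite Q := Finite.of_surjective _ hf'
  have htop : ((S₀.mapSurjective hf' : Sylow p Q) : Subgroup Q) = ⊤ :=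
    ((S₀.mapSurjective hf').is_maximal' (Q := ⊤)
      (hQ.of_equiv Subgroup.topEquiv.symm) le_top).symm
  have hsyl := isSylowIn_of_sylow S₀
  set Q₀ : Subgroup K := (S₀ : Subgroup (Q.comap f)).map (Q.comap f).subtype with hQ₀
  have hex : ∀ q ∈ Q, ∃ s ∈ Q₀, f s = q := by
    intro q hq
    have h1 : (⟨q, hq⟩ : Q) ∈ ((S₀.mapSurjective hf' : Sylow p Q) : Subgroup Q) := by
      rw [htop]; exact Subgroup.mem_top _
    rw [Sylow.coe_mapSurjective] at h1
    obtain ⟨s, hs, hsq⟩ := h1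
    exact ⟨s, ⟨s, hs, rfl⟩, congrArg Subtype.val hsq⟩
  refine ⟨Q₀, hsyl.2.1, ?_, ?_⟩
  · apply le_antisymm
    · rintro _ ⟨s, hs, rfl⟩
      exact hsyl.1 hs
    · intro q hq
      obtain ⟨s, hs, rfl⟩ := hex q hq
      exact ⟨s, hs, rfl⟩
  · intro x hx
    obtain ⟨x₁, rfl⟩ := hf x
    have hM : cj x₁ (Q.comap f) = Q.comap f := by
      rw [← mem_normalizer_iff_cj, Subgroup.mem_normalizer_iff]
      intro k
      rw [Subgroup.mem_comap, Subgroup.mem_comap, map_mul, map_mul, map_inv]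
      exact Subgroup.mem_normalizer_iff.1 hx (f k)
    have h2 := hsyl.cj x₁
    rw [hM] at h2
    obtain ⟨m, hm, hmc⟩ := hsyl.exists_conj_eq h2
    obtain ⟨q, hq, hqm⟩ := hex (f m)⁻¹ (Q.inv_mem hm)
    refine ⟨q * (m * x₁), ?_, ?_⟩
    · apply Subgroup.mul_mem _ (Subgroup.le_normalizer hq)
      rw [mem_normalizer_iff_cj, cj_mul]
      exact hmc
    · rw [map_mul, map_mul, hqm, inv_mul_cancel_left]

theorem involves_of_section_le {G S : Type*} [Group G] [Group S] {K L N : Subgroup G}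
    [hL : (L.subgroupOf K).Normal] (hK : K ≤ N) (e : (K ⧸ L.subgroupOf K) ≃* S) :
    Involves S N := by
  rw [Cfsg.Agent.Lib.Helper24Section.involves_iff]
  refine ⟨K.subgroupOf N, (e.toMonoidHom.comp (QuotientGroup.mk' (L.subgroupOf K))).comp
    (Subgroup.subgroupOfEquivOfLe hK).toMonoidHom, ?_⟩
  exact (e.surjective.comp (QuotientGroup.mk'_surjective _)).comp (MulEquiv.surjective _)

/-- If `SL₂(p)` is not involved in any `p`-local subgroup then every section is `p`-stable. -/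
theorem section_stable {G : Type*} [Group G] [Finite G] {p : ℕ} [Fact p.Prime] (hp : p ≠ 2)
    (h : ∀ P : Subgroup G, IsPGroup p ↥P → P ≠ ⊥ →
      ¬ Cfsg.Involves (SL2 (ZMod p)) ↥(Subgroup.normalizer ((P : Subgroup G) : Set G)))
    (K : Subgroup G) {X : Type*} [Group X] [Finite X] (f : K →* X) (hf : Function.Surjective f) :
    Cfsg.IsNormalizerPStable p X := by
  intro Q hQ g hg hq
  have key := map_le_pCore' p Q hQ
    (Subgroup.normalizer (Q : Set X)).subtype (fun n => n.2) ?_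
    (QuotientGroup.mk' ((Subgroup.centralizer (Q : Set X)).subgroupOf (Subgroup.normalizer (Q : Set X))))
    (QuotientGroup.mk'_surjective _) ?_ {⟨g, hg⟩} ?_
  · exact key ⟨⟨g, hg⟩, Subgroup.subset_closure rfl, rfl⟩
  · rintro ⟨x, hx⟩ ⟨y, hy⟩ hQP
    obtain ⟨Q₀, hQ₀, hmap, hlift⟩ := exists_lift_normalizer f hf Q hQ
    obtain ⟨x', hx', rfl⟩ := hlift x hx
    obtain ⟨y', hy', rfl⟩ := hlift y hy
    have h1 : QPair p (Q.comap f) x' y' := QPair.comap f hf (fun v hv => hv) hQP
    have h2 := h1.map K.subtype K.subtype_injective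
    obtain ⟨K', L', hL', hK', ⟨e⟩⟩ := QPair.exists_section hp h2
    apply h (Q₀.map K.subtype) (hQ₀.map _)
    · intro hbot
      rw [Subgroup.map_eq_bot_iff_of_injective _ K.subtype_injective] at hbot
      apply QPair.ne_bot hQP
      rw [← hmap, hbot, Subgroup.map_bot]
    · refine involves_of_section_le (hK'.trans ?_) e
      rw [Subgroup.closure_le]
      have hN := Cfsg.Agent.Lib.Helper14NPS.map_normalizer_le K.subtype Q₀
      rintro t (rfl | ht)
      · exact hN ⟨x', hx', rfl⟩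
      · rw [Set.mem_singleton_iff] at ht
        subst ht
        exact hN ⟨y', hy', rfl⟩
  · intro n hn
    rw [QuotientGroup.mk'_apply, QuotientGroup.eq_one_iff, Subgroup.mem_subgroupOf,
      Subgroup.mem_centralizer_iff]
    intro u hu
    exact (hn u hu).symm
  · intro x hx u hu
    rw [Set.mem_singleton_iff] at hx
    subst hx
    exact quad_of_zpowers hq u hu

end Cfsg.Agent.Lib.Helper31Pair4
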