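import Cfsg.Agent.S1466
import Cfsg.Agent.S1467
import Cfsg.Agent.Lib.Helper15PStable2
import Cfsg.Agent.Lib.Helper14ZJ
import Cfsg.Agent.S1465
import Cfsg.Agent.Lib.Helper40Cores
import Mathlib

set_option autoImplicit false
open Cfsg

namespace Cfsg.Agent.Lib.Helper31Puig

open Cfsg.Agent.Lib.Helper14Family Cfsg.Agent.Lib.Helper14FamProps
  Cfsg.Agent.Lib.Helper15PStable2

universe u
variable {G : Type u} [Group G]

/-- `L_H(X)` inside the ambient group -/
def pStep (H X : Subgroup G) : Subgroup G :=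
  sSup {A | A ≤ H ∧ IsMulCommutative A ∧ X ≤ Subgroup.normalizer (A : Set G)}

def pSeq (H : Subgroup G) (n : ℕ) : Subgroup G := (Cfsg.puigSeq ↥H n).map H.subtype
def pLow (H : Subgroup G) : Subgroup G := (Cfsg.puigLower ↥H).map H.subtype
def pUp (H : Subgroup G) : Subgroup G := (Cfsg.puigSubgroup ↥H).map H.subtype

theorem pStep_le (H X : Subgroup G) : pStep H X ≤ H := sSup_le fun _ hA => hA.1

theorem le_pStep {H X A : Subgroup G} (h1 : A ≤ H) (h2 : IsMulCommutative A)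
    (h3 : X ≤ Subgroup.normalizer (A : Set G)) : A ≤ pStep H X := le_sSup ⟨h1, h2, h3⟩

theorem pStep_mono {H H' X X' : Subgroup G} (hH : H ≤ H') (hX : X' ≤ X) :
    pStep H X ≤ pStep H' X' :=
  sSup_le_sSup fun _ hA => ⟨hA.1.trans hH, hA.2.1, hX.trans hA.2.2⟩

theorem pStep_eq_of_le {H R X : Subgroup G} (hR : R ≤ H) (h : pStep H X ≤ R) :
    pStep R X = pStep H X :=
  le_antisymm (pStep_mono hR le_rfl)
    (sSup_le fun _ hA => le_pStep ((le_sSup hA).trans h) hA.2.1 hA.2.2)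

theorem map_puigStep (H : Subgroup G) (X : Subgroup ↥H) :
    (Cfsg.puigStep X).map H.subtype = pStep H (X.map H.subtype) := by
  unfold Cfsg.puigStep pStep
  rw [map_subtype_sSup]
  congr 1
  ext A'
  constructor
  · rintro ⟨A, ⟨hAc, hAn⟩, rfl⟩
    exact ⟨Subgroup.map_subtype_le A, inferInstance,
      (Subgroup.map_mono hAn).trans (Subgroup.le_normalizer_map _)⟩
  · rintro ⟨h1, h2, h3⟩
    refine ⟨A'.subgroupOf H, ⟨inferInstance, ?_⟩, map_subgroupOf h1⟩
    rw [Subgroup.le_normalizer_iff]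
    intro x hx a ha
    rw [Subgroup.mem_subgroupOf] at ha ⊢
    exact (Subgroup.le_normalizer_iff.1 h3) x ⟨x, hx, rfl⟩ a ha

theorem pSeq_zero (H : Subgroup G) : pSeq H 0 = ⊥ := by
  unfold pSeq
  show (⊥ : Subgroup ↥H).map H.subtype = ⊥
  exact Subgroup.map_bot _

theorem pSeq_succ (H : Subgroup G) (n : ℕ) : pSeq H (n + 1) = pStep H (pSeq H n) := by
  unfold pSeq
  rw [← map_puigStep]
  rfl

theorem pSeq_le (H : Subgroup G) (n : ℕ) : pSeq H n ≤ H := Subgroup.map_subtype_le _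
theorem pLow_le (H : Subgroup G) : pLow H ≤ H := Subgroup.map_subtype_le _
theorem pUp_le (H : Subgroup G) : pUp H ≤ H := Subgroup.map_subtype_le _

theorem pLow_eq (H : Subgroup G) : pLow H = ⨆ n : ℕ, pSeq H (2 * n) := by
  unfold pLow pSeq Cfsg.puigLower
  rw [Subgroup.map_iSup]

theorem pUp_eq (H : Subgroup G) : pUp H = ⨅ n : ℕ, pSeq H (2 * n + 1) := by
  unfold pUp pSeq Cfsg.puigSubgroup
  rw [Subgroup.map_iInf _ H.subtype_injective]

section fin
variable [Finite G]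

theorem pLow_le_pUp (H : Subgroup G) : pLow H ≤ pUp H :=
  Subgroup.map_mono (Cfsg.Agent.S1467.result (G := ↥H)).2.2.2.2.1

theorem pStep_pLow (H : Subgroup G) : pStep H (pLow H) = pUp H := by
  unfold pLow pUp
  rw [← map_puigStep, (Cfsg.Agent.S1467.result (G := ↥H)).2.2.2.2.2.1]

theorem pStep_pUp (H : Subgroup G) : pStep H (pUp H) = pLow H := by
  unfold pLow pUp
  rw [← map_puigStep, (Cfsg.Agent.S1467.result (G := ↥H)).2.2.2.2.2.2]

theorem exists_stab (H : Subgroup G) : ∃ k : ℕ, ∀ n : ℕ, k ≤ n →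
    pSeq H (2 * n) = pLow H ∧ pSeq H (2 * n + 1) = pUp H := by
  obtain ⟨k, hk⟩ := (Cfsg.Agent.S1467.result (G := ↥H)).2.2.2.1
  refine ⟨k, fun n hn => ⟨?_, ?_⟩⟩
  · unfold pSeq pLow; rw [(hk n hn).1]
  · unfold pSeq pUp; rw [(hk n hn).2]

end fin

theorem pSeq_even_le_pLow (H : Subgroup G) (n : ℕ) : pSeq H (2 * n) ≤ pLow H := by
  rw [pLow_eq]; exact le_iSup (fun n => pSeq H (2 * n)) n

theorem pUp_le_pSeq_odd (H : Subgroup G) (n : ℕ) : pUp H ≤ pSeq H (2 * n + 1) := by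
  rw [pUp_eq]; exact iInf_le (fun n => pSeq H (2 * n + 1)) n

/-- B & G, Lemma B.1(g) -/
theorem pUp_eq_of_le [Finite G] {H R : Subgroup G} (hR : R ≤ H) (hL : pUp H ≤ R) :
    pLow R = pLow H ∧ pUp R = pUp H := by
  have claimA : ∀ n : ℕ, pSeq H (2 * n) ≤ pSeq R (2 * n) ∧ pSeq R (2 * n + 1) ≤ pSeq H (2 * n + 1) := by
    intro n
    induction n with
    | zero =>
      have h0 : pSeq H (2 * 0) ≤ pSeq R (2 * 0) := by
        rw [Nat.mul_zero, pSeq_zero]; exact bot_le
      refine ⟨h0, ?_⟩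
      rw [pSeq_succ, pSeq_succ]
      exact pStep_mono hR h0
    | succ n ih =>
      have h1 : pSeq H (2 * (n + 1)) ≤ pSeq R (2 * (n + 1)) := by
        have e : 2 * (n + 1) = (2 * n + 1) + 1 := by ring
        have hle : pStep H (pSeq H (2 * n + 1)) ≤ R := by
          rw [← pSeq_succ, ← e]
          exact (pSeq_even_le_pLow H (n + 1)).trans ((pLow_le_pUp H).trans hL)
        rw [e, pSeq_succ H (2 * n + 1), pSeq_succ R (2 * n + 1), ← pStep_eq_of_le hR hle]
        exact pStep_mono le_rfl ih.2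
      refine ⟨h1, ?_⟩
      rw [pSeq_succ, pSeq_succ]
      exact pStep_mono hR h1
  have claimB : ∀ n : ℕ, pSeq R (2 * n) ≤ pLow H ∧ pUp H ≤ pSeq R (2 * n + 1) := by
    have step : ∀ n : ℕ, pSeq R (2 * n) ≤ pLow H → pUp H ≤ pSeq R (2 * n + 1) := by
      intro n h
      rw [pSeq_succ]
      have hle : pStep H (pLow H) ≤ R := by rw [pStep_pLow]; exact hL
      calc pUp H = pStep H (pLow H) := (pStep_pLow H).symm
        _ = pStep R (pLow H) := (pStep_eq_of_le hR hle).symm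
        _ ≤ pStep R (pSeq R (2 * n)) := pStep_mono le_rfl h
    intro n
    induction n with
    | zero =>
      have h0 : pSeq R (2 * 0) ≤ pLow H := by
        rw [Nat.mul_zero, pSeq_zero]; exact bot_le
      exact ⟨h0, step 0 h0⟩
    | succ n ih =>
      have h1 : pSeq R (2 * (n + 1)) ≤ pLow H := by
        have e : 2 * (n + 1) = (2 * n + 1) + 1 := by ring
        rw [e, pSeq_succ R (2 * n + 1), ← pStep_pUp H]
        exact pStep_mono hR ih.2
      exact ⟨h1, step _ h1⟩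
  constructor
  · apply le_antisymm
    · rw [pLow_eq R]
      exact iSup_le fun n => (claimB n).1
    · rw [pLow_eq H, pLow_eq R]
      exact iSup_mono fun n => (claimA n).1
  · apply le_antisymm
    · rw [pUp_eq H, pUp_eq R]
      exact iInf_mono fun n => (claimA n).2
    · rw [pUp_eq R]
      exact le_iInf fun n => (claimB n).2

section transport
variable {G' : Type u} [Group G'] (f : G →* G') {H : Subgroup G}

theorem pStep_map (hHf : H ⊓ f.ker = ⊥) {X : Subgroup G} (hX : X ≤ H) :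
    pStep (H.map f) (X.map f) = (pStep H X).map f := by
  apply le_antisymm
  · apply sSup_le
    rintro B ⟨hB1, hB2, hB3⟩
    rw [← map_pre f hB1]
    apply Subgroup.map_mono
    apply le_pStep inf_le_right (comm_pre f hHf hB2)
    rw [Subgroup.le_normalizer_iff]
    intro x hx a ha
    refine ⟨?_, H.mul_mem (H.mul_mem (hX hx) ha.2) (H.inv_mem (hX hx))⟩
    show f (x * a * x⁻¹) ∈ B
    rw [map_mul, map_mul, map_inv]
    exact (Subgroup.le_normalizer_iff.1 hB3) (f x) ⟨x, hx, rfl⟩ (f a) ha.1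
  · unfold pStep
    rw [(Subgroup.gc_map_comap f).l_sSup]
    apply iSup₂_le
    rintro A ⟨hA1, hA2, hA3⟩
    exact le_sSup ⟨Subgroup.map_mono hA1, inferInstance,
      (Subgroup.map_mono hA3).trans (Subgroup.le_normalizer_map _)⟩

theorem pSeq_map (hHf : H ⊓ f.ker = ⊥) (n : ℕ) : pSeq (H.map f) n = (pSeq H n).map f := by
  induction n with
  | zero => rw [pSeq_zero, pSeq_zero, Subgroup.map_bot]
  | succ n ih => rw [pSeq_succ, pSeq_succ, ih, pStep_map f hHf (pSeq_le H n)]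

theorem pUp_map [Finite G] [Finite G'] (hHf : H ⊓ f.ker = ⊥) : pUp (H.map f) = (pUp H).map f := by
  obtain ⟨k, hk⟩ := exists_stab H
  obtain ⟨k', hk'⟩ := exists_stab (H.map f)
  rw [← (hk (max k k') (le_max_left _ _)).2, ← (hk' (max k k') (le_max_right _ _)).2,
    pSeq_map f hHf]

theorem pLow_map [Finite G] [Finite G'] (hHf : H ⊓ f.ker = ⊥) :
    pLow (H.map f) = (pLow H).map f := by
  obtain ⟨k, hk⟩ := exists_stab H
  obtain ⟨k', hk'⟩ := exists_stab (H.map f)
  rw [← (hk (max k k') (le_max_left _ _)).1, ← (hk' (max k k') (le_max_right _ _)).1,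
    pSeq_map f hHf]

end transport

open Cfsg.Agent.Lib.Helper14Sylow in
theorem norm_le_norm_pSeq (H : Subgroup G) (n : ℕ) :
    Subgroup.normalizer (H : Set G) ≤ Subgroup.normalizer ((pSeq H n : Subgroup G) : Set G) := by
  intro g hg
  have h1 : cj g H = H := mem_normalizer_iff_cj.mp hg
  rw [mem_normalizer_iff_cj]
  have := pSeq_map (MulAut.conj g).toMonoidHom (H := H) (by
    rw [(MonoidHom.ker_eq_bot_iff _).2 (MulAut.conj g).injective, inf_bot_eq]) n
  have h2 : H.map (MulAut.conj g).toMonoidHom = H := h1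
  rw [h2] at this
  exact this.symm

open Cfsg.Agent.Lib.Helper14Sylow in
theorem norm_le_norm_pUp [Finite G] (H : Subgroup G) :
    Subgroup.normalizer (H : Set G) ≤ Subgroup.normalizer ((pUp H : Subgroup G) : Set G) := by
  obtain ⟨k, hk⟩ := exists_stab H
  rw [← (hk k le_rfl).2]
  exact norm_le_norm_pSeq H _

/-- the centre of the Puig subgroup, ambient form -/
def ZL (H : Subgroup G) : Subgroup G := pUp H ⊓ Subgroup.centralizer (pUp H : Set G)

theorem ZL_congr {H K : Subgroup G} (h : pUp H = pUp K) : ZL H = ZL K := by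
  unfold ZL
  rw [h]

open Cfsg.Agent.Lib.Helper14Sylow in
theorem norm_le_norm_ZL [Finite G] (H : Subgroup G) :
    Subgroup.normalizer (H : Set G) ≤ Subgroup.normalizer ((ZL H : Subgroup G) : Set G) := by
  refine (le_inf (norm_le_norm_pUp H) ?_).trans Subgroup.inf_normalizer_le_normalizer_inf
  intro g hg
  have h1 : cj g (pUp H) = pUp H := mem_normalizer_iff_cj.mp (norm_le_norm_pUp H hg)
  rw [mem_normalizer_iff_cj, ← centralizer_cj, h1]

theorem center_map_map (S : Subgroup G) (K : Subgroup ↥S) :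
    ((Subgroup.center ↥K).map K.subtype).map S.subtype =
      K.map S.subtype ⊓ Subgroup.centralizer ((K.map S.subtype : Subgroup G) : Set G) := by
  ext x
  constructor
  · rintro ⟨_, ⟨z, hz, rfl⟩, rfl⟩
    refine ⟨⟨(z : ↥S), z.2, rfl⟩, ?_⟩
    show _ ∈ Subgroup.centralizer ((K.map S.subtype : Subgroup G) : Set G)
    rw [Subgroup.mem_centralizer_iff]
    rintro _ ⟨k, hk, rfl⟩
    have := Subgroup.mem_center_iff.1 hz ⟨k, hk⟩
    exact congrArg (fun t : ↥K => ((t : ↥S) : G)) this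
  · rintro ⟨⟨k, hk, rfl⟩, hc⟩
    have hc' : S.subtype k ∈ Subgroup.centralizer ((K.map S.subtype : Subgroup G) : Set G) := hc
    rw [Subgroup.mem_centralizer_iff] at hc'
    refine ⟨k, ⟨⟨k, hk⟩, ?_, rfl⟩, rfl⟩
    show (⟨k, hk⟩ : ↥K) ∈ Subgroup.center ↥K
    rw [Subgroup.mem_center_iff]
    intro j
    apply Subtype.ext
    apply Subtype.ext
    exact hc' _ ⟨(j : ↥S), j.2, rfl⟩

theorem ZL_eq (S : Subgroup G) :
    ((Subgroup.center ↥(Cfsg.puigSubgroup ↥S)).map (Cfsg.puigSubgroup ↥S).subtype).map S.subtype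
      = ZL S := center_map_map S _

theorem ZL_le (H : Subgroup G) : ZL H ≤ H := inf_le_left.trans (pUp_le H)

theorem ZL_comm {H : Subgroup G} {a b : G} (ha : a ∈ ZL H) (hb : b ∈ ZL H) : a * b = b * a :=
  (Subgroup.mem_centralizer_iff.1 hb.2 a ha.1)

theorem ZL_map {G' : Type u} [Group G'] [Finite G] [Finite G'] (f : G →* G') {H : Subgroup G}
    (hHf : H ⊓ f.ker = ⊥) : ZL (H.map f) = (ZL H).map f := by
  unfold ZL
  rw [pUp_map f hHf]
  apply le_antisymm
  · rintro _ ⟨⟨z, hz, rfl⟩, hc⟩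
    refine ⟨z, ⟨hz, ?_⟩, rfl⟩
    show z ∈ Subgroup.centralizer (pUp H : Set G)
    rw [Subgroup.mem_centralizer_iff]
    intro j hj
    have hc' : f z ∈ Subgroup.centralizer ((Subgroup.map f (pUp H) : Subgroup G') : Set G') := hc
    have h1 := Subgroup.mem_centralizer_iff.1 hc' (f j) ⟨j, hj, rfl⟩
    rw [← map_mul, ← map_mul] at h1
    exact injOn_of_inf f hHf (H.mul_mem (pUp_le H hj) (pUp_le H hz))
      (H.mul_mem (pUp_le H hz) (pUp_le H hj)) h1
  · rintro _ ⟨z, ⟨hz, hc⟩, rfl⟩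
    refine ⟨⟨z, hz, rfl⟩, ?_⟩
    show f z ∈ Subgroup.centralizer ((Subgroup.map f (pUp H) : Subgroup G') : Set G')
    rw [Subgroup.mem_centralizer_iff]
    rintro _ ⟨j, hj, rfl⟩
    have hc' : z ∈ Subgroup.centralizer (pUp H : Set G) := hc
    rw [← map_mul, ← map_mul, Subgroup.mem_centralizer_iff.1 hc' j hj]

section odd
variable [Finite G] [Group.IsSolvable G] (hodd : Odd (Nat.card G)) (p : ℕ) [Fact p.Prime]
  (hp : p ≠ 2) (hO : Cfsg.pPrimeCore p G = ⊥)
include hodd hp hO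

theorem pStep_sylow_le (S : Sylow p G) (X : Subgroup G) (hXn : X.Normal) (hXp : IsPGroup p X)
    (hX : Cfsg.pCore p G ⊓ Subgroup.centralizer (X : Set G) ≤ X) :
    pStep (S : Subgroup G) X ≤ pStep (Cfsg.pCore p G) X := by
  apply sSup_le
  rintro A ⟨hA1, hA2, hA3⟩
  have key := (Cfsg.Agent.S1465.result hodd p hp X hXp {A} (by
    intro B hB
    rw [Set.mem_singleton_iff] at hB
    subst hB
    exact ⟨hA2, S.2.to_le hA1, hA3⟩)).2 hO hX
  rw [sSup_singleton] at key
  exact le_pStep key hA2 hA3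

omit hodd hp hO [Group.IsSolvable G] in
theorem inf_centralizer_pSeq_le (T : Subgroup G) (hT : IsPGroup p T) (i : ℕ) (hi : 0 < i) :
    T ⊓ Subgroup.centralizer (pSeq T i : Set G) ≤ pSeq T i := by
  by_cases hbot : T = ⊥
  · rw [hbot, bot_inf_eq]; exact bot_le
  have hnt : Nontrivial T := (Subgroup.nontrivial_iff_ne_bot T).2 hbot
  have h := ((Cfsg.Agent.S1466.result (R := ↥T) p hT).1 i hi).2
  rintro x ⟨hxT, hxc⟩
  have hxc' : x ∈ Subgroup.centralizer (pSeq T i : Set G) := hxc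
  rw [Subgroup.mem_centralizer_iff] at hxc'
  have h1 : (⟨x, hxT⟩ : ↥T) ∈ Subgroup.centralizer ((Cfsg.puigSeq ↥T i : Subgroup ↥T) : Set ↥T) := by
    rw [Subgroup.mem_centralizer_iff]
    intro y hy
    exact Subtype.ext (hxc' (y : G) ⟨y, hy, rfl⟩)
  exact ⟨⟨x, hxT⟩, h h1, rfl⟩

theorem pSeq_compare (S : Sylow p G) (n : ℕ) :
    pSeq (S : Subgroup G) (2 * n) ≤ pSeq (Cfsg.pCore p G) (2 * n) ∧
      pSeq (Cfsg.pCore p G) (2 * n + 1) ≤ pSeq (S : Subgroup G) (2 * n + 1) := by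
  have hTn : (Cfsg.pCore p G).Normal := Cfsg.Agent.Lib.Helper1Fitting.pCore_normal p
  have hTp : IsPGroup p (Cfsg.pCore p G) := Cfsg.Agent.Lib.Helper1Fitting.pCore_isPGroup p
  have hTS : Cfsg.pCore p G ≤ (S : Subgroup G) := Cfsg.Agent.Lib.Helper40Cores.pCore_le_sylow S
  have step : ∀ n : ℕ, pSeq (S : Subgroup G) (2 * n) ≤ pSeq (Cfsg.pCore p G) (2 * n) →
      pSeq (Cfsg.pCore p G) (2 * n + 1) ≤ pSeq (S : Subgroup G) (2 * n + 1) := by
    intro n h
    rw [pSeq_succ, pSeq_succ]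
    exact pStep_mono hTS h
  induction n with
  | zero =>
    have h0 : pSeq (S : Subgroup G) (2 * 0) ≤ pSeq (Cfsg.pCore p G) (2 * 0) := by
      rw [Nat.mul_zero, pSeq_zero]; exact bot_le
    exact ⟨h0, step 0 h0⟩
  | succ n ih =>
    have h1 : pSeq (S : Subgroup G) (2 * (n + 1)) ≤ pSeq (Cfsg.pCore p G) (2 * (n + 1)) := by
      have e : 2 * (n + 1) = (2 * n + 1) + 1 := by ring
      rw [e, pSeq_succ (S : Subgroup G) (2 * n + 1), pSeq_succ (Cfsg.pCore p G) (2 * n + 1)]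
      refine (pStep_mono le_rfl ih.2).trans ?_
      apply pStep_sylow_le hodd p hp hO S
      · rw [← Subgroup.normalizer_eq_top_iff, eq_top_iff,
          ← Subgroup.normalizer_eq_top_iff.2 hTn]
        exact norm_le_norm_pSeq _ _
      · exact hTp.to_le (pSeq_le _ _)
      · exact inf_centralizer_pSeq_le p _ hTp _ (Nat.succ_pos _)
    exact ⟨h1, step _ h1⟩

theorem pLow_sylow_le (S : Sylow p G) : pLow (S : Subgroup G) ≤ pLow (Cfsg.pCore p G) := by
  rw [pLow_eq, pLow_eq]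
  exact iSup_mono fun n => (pSeq_compare hodd p hp hO S n).1

theorem pUp_core_le (S : Sylow p G) : pUp (Cfsg.pCore p G) ≤ pUp (S : Subgroup G) := by
  rw [pUp_eq, pUp_eq]
  exact iInf_mono fun n => (pSeq_compare hodd p hp hO S n).2

open Cfsg.Agent.Lib.Helper14ZJ in
/-- **Puig's theorem** -/
theorem ZL_normal (S : Sylow p G) : (ZL (S : Subgroup G)).Normal := by
  have hTn : (Cfsg.pCore p G).Normal := Cfsg.Agent.Lib.Helper1Fitting.pCore_normal p
  have hTp : IsPGroup p (Cfsg.pCore p G) := Cfsg.Agent.Lib.Helper1Fitting.pCore_isPGroup p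
  have hTS : Cfsg.pCore p G ≤ (S : Subgroup G) := Cfsg.Agent.Lib.Helper40Cores.pCore_le_sylow S
  have hZTn : (ZL (Cfsg.pCore p G)).Normal := by
    rw [← Subgroup.normalizer_eq_top_iff, eq_top_iff, ← Subgroup.normalizer_eq_top_iff.2 hTn]
    exact norm_le_norm_ZL _
  have hZTp : IsPGroup p (ZL (Cfsg.pCore p G)) := hTp.to_le (ZL_le _)
  have hZTc : IsMulCommutative (ZL (Cfsg.pCore p G)) :=
    .of_setLike_mul_comm fun a ha b hb => ZL_comm ha hb
  have hZc : IsMulCommutative (ZL (S : Subgroup G)) :=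
    .of_setLike_mul_comm fun a ha b hb => ZL_comm ha hb
  have hZlow : ZL (S : Subgroup G) ≤ pLow (S : Subgroup G) := by
    rw [← pStep_pUp]
    exact le_pStep (ZL_le _) hZc
      ((pUp_le _).trans (Subgroup.le_normalizer.trans (norm_le_norm_ZL _)))
  have hZZT : ZL (S : Subgroup G) ≤ ZL (Cfsg.pCore p G) := by
    intro z hz
    refine ⟨pLow_le_pUp _ (pLow_sylow_le hodd p hp hO S (hZlow hz)), ?_⟩
    exact Subgroup.centralizer_le (pUp_core_le hodd p hp hO S) hz.2
  have hZTlow : ZL (Cfsg.pCore p G) ≤ pLow (S : Subgroup G) := by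
    rw [← pStep_pUp]
    apply le_pStep ((ZL_le _).trans hTS) hZTc
    rw [Subgroup.normalizer_eq_top]
    exact le_top
  have hLK : pUp (S : Subgroup G) ≤ LL p (ZL (Cfsg.pCore p G)) := by
    rw [← pStep_pLow]
    have key := (Cfsg.Agent.S1465.result hodd p hp (ZL (Cfsg.pCore p G)) hZTp
      {A | A ≤ (S : Subgroup G) ∧ IsMulCommutative A ∧
        pLow (S : Subgroup G) ≤ Subgroup.normalizer (A : Set G)} (by
      rintro B ⟨hB1, hB2, hB3⟩
      exact ⟨hB2, S.2.to_le hB1, hZTlow.trans hB3⟩)).1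
    exact Subgroup.map_le_iff_le_comap.1 key
  have hfr := frattini_LL (ZL (Cfsg.pCore p G)) S
  have hLR : pUp (S : Subgroup G) ≤ (S : Subgroup G) ⊓ LL p (ZL (Cfsg.pCore p G)) :=
    le_inf (pUp_le _) hLK
  have hUp := (pUp_eq_of_le (inf_le_left : (S : Subgroup G) ⊓ LL p (ZL (Cfsg.pCore p G)) ≤ _)
    hLR).2
  have hZR : ZL ((S : Subgroup G) ⊓ LL p (ZL (Cfsg.pCore p G))) = ZL (S : Subgroup G) :=
    ZL_congr hUp
  rw [← Subgroup.normalizer_eq_top_iff, eq_top_iff, ← hfr]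
  apply sup_le
  · rw [← hZR]
    exact norm_le_norm_ZL _
  · exact (Subgroup.centralizer_le hZZT).trans (Subgroup.centralizer_le_normalizer _)

end odd

end Cfsg.Agent.Lib.Helper31Puig
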