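import Cfsg.Agent.Lib.Helper1FrobThm

set_option autoImplicit false

namespace Cfsg.Agent.Lib.Helper32Wiel

open Subgroup Pointwise Cfsg Cfsg.Agent.Lib.Helper1Basic Cfsg.Agent.Lib.Helper1Frob
open Cfsg.Agent.Lib.Helper4Char Cfsg.Agent.Lib.Helper4Char2 Cfsg.Agent.Lib.Helper4Char4
open Cfsg.Agent.Lib.Helper32Virt Cfsg.Agent.Lib.Helper32Ind Cfsg.Agent.Lib.Helper19Ind
open Cfsg.Agent.Lib.Helper82Quot Cfsg.Agent.Lib.Helper1FrobThm
open scoped ComplexConjugate

variable {G : Type*} [Group G]

/-- the hypothesis of Wielandt's generalisation of the theorem of Frobenius -/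
structure WData (N K : Subgroup G) : Prop where
  le : K ≤ N
  normal : ∀ n ∈ N, ∀ k ∈ K, n * k * n⁻¹ ∈ K
  ti : ∀ g : G, g ∉ N → ∀ t ∈ N, g * t * g⁻¹ ∈ N → t ∈ K

variable {N K : Subgroup G}

theorem WData.conj_mem (W : WData N K) {x k : G} (hk : k ∈ K) (hx : x⁻¹ * k * x ∈ N) :
    x⁻¹ * k * x ∈ K := by
  by_cases hxN : x ∈ N
  · have := W.normal x⁻¹ (N.inv_mem hxN) k hk
    simpa using this
  · apply W.ti x hxN _ hx
    have : x * (x⁻¹ * k * x) * x⁻¹ = k := by group
    rw [this]; exact W.le hk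

theorem WData.tiT (W : WData N K) :
    ∀ g : G, g ∉ N → ∀ t ∈ {t : G | t ∈ N ∧ t ∉ K}, g * t * g⁻¹ ∈ {t : G | t ∈ N ∧ t ∉ K} → t = 1 := by
  intro g hg t ht hgt
  exact absurd (W.ti g hg t ht.1 hgt.1) ht.2

theorem ind_eq_zero [Fintype G] (θ : N → ℂ) (hθ : ∀ n : N, (n : G) ∈ K → θ n = 0) {g : G}
    (hg : ∀ x : G, x⁻¹ * g * x ∈ N → x⁻¹ * g * x ∈ K) : indFun N θ g = 0 := by
  rw [indFun_apply, Finset.sum_eq_zero, mul_zero]
  intro x _
  by_cases hx : x⁻¹ * g * x ∈ N
  · rw [extendByZero_of_mem N θ hx]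
    exact hθ _ (hg x hx)
  · exact extendByZero_of_not_mem N θ hx

theorem ext_of_not_conj [Fintype G] (φ : N → ℂ) (hφK : ∀ n : N, (n : G) ∈ K → φ n = φ 1) {g : G}
    (hg : ∀ x : G, x⁻¹ * g * x ∈ N → x⁻¹ * g * x ∈ K) : ext N φ g = φ 1 := by
  unfold Helper1FrobThm.ext
  rw [Pi.add_apply, ind_eq_zero _ _ hg]
  · simp
  · intro n hn
    simp [hφK n hn]

theorem ext_of_mem' [Fintype G] (W : WData N K) (φ : N → ℂ) (hφ : IsClassFunction N φ)
    (hφK : ∀ n : N, (n : G) ∈ K → φ n = φ 1) (n : N) : ext N φ n = φ n := by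
  by_cases hn : (n : G) ∈ K
  · rw [ext_of_not_conj φ hφK (fun x hx => W.conj_mem hn hx), hφK n hn]
  · unfold Helper1FrobThm.ext
    have hn1 : n ≠ 1 := by
      rintro rfl
      exact hn K.one_mem
    rw [Pi.add_apply, indFun_eq_of_TI N {t : G | t ∈ N ∧ t ∉ K} W.tiT _ ?_ ?_ n ⟨n.2, hn⟩ hn1]
    · simp
    · intro a b
      simp only [Pi.sub_apply, Pi.smul_apply, hφ a b]
    · intro x hx
      have hxK : (x : G) ∈ K := by
        by_contra h
        exact hx ⟨x.2, h⟩
      simp [hφK x hxK]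

theorem ext_norm' [Fintype G] (W : WData N K) {φ : N → ℂ}
    (hφ : IsIrrCharacter N φ) (hφK : ∀ n : N, (n : G) ∈ K → φ n = φ 1)
    (hne : φ ≠ fun _ => 1) : classInner (ext N φ) (ext N φ) = 1 := by
  have : Fintype N := Fintype.ofFinite N
  obtain ⟨d, -, hd⟩ := IsIrrCharacter.exists_degree hφ
  set c : ℂ := φ 1 with hc
  have hcc : conj c = c := by rw [hd, Complex.conj_natCast]
  set oneH : N → ℂ := fun _ => 1 with honeH
  set oneG : G → ℂ := fun _ => 1 with honeG
  have h1H : IsIrrCharacter N oneH := Cfsg.Agent.Lib.Helper4Burnside.isIrrCharacter_one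
  have h1G : IsIrrCharacter G oneG := Cfsg.Agent.Lib.Helper4Burnside.isIrrCharacter_one
  set θ : N → ℂ := φ - c • oneH with hθ
  have hθcl : IsClassFunction N θ :=
    IsClassFunction.sub (IsIrrCharacter.isClassFunction hφ)
      (IsClassFunction.smul c (IsIrrCharacter.isClassFunction h1H))
  have hθ1 : θ 1 = 0 := by simp [hθ, honeH, hc]
  have hθT : ∀ x : N, (x : G) ∉ {t : G | t ∈ N ∧ t ∉ K} → θ x = 0 := by
    intro x hx
    have hxK : (x : G) ∈ K := by
      by_contra h
      exact hx ⟨x.2, h⟩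
    simp [hθ, honeH, hφK x hxK, hc]
  have e1 : classInner φ oneH = 0 := classInner_irr_ne hφ h1H hne
  have e2 : classInner oneH φ = 0 := classInner_irr_ne h1H hφ (Ne.symm hne)
  have e3 : classInner oneH oneH = 1 := classInner_irr_self h1H
  have e4 : classInner φ φ = 1 := classInner_irr_self hφ
  have e5 : classInner oneG oneG = 1 := classInner_irr_self h1G
  have hA : classInner (indFun N θ) (indFun N θ) = 1 + c * c := by
    rw [classInner_indFun_of_TI N {t : G | t ∈ N ∧ t ∉ K} W.tiT θ θ hθcl hθT hθT hθ1]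
    rw [hθ, classInner_sub_left, classInner_sub_right, classInner_sub_right,
      classInner_smul_right, classInner_smul_right, classInner_smul_left, classInner_smul_left,
      e1, e2, e3, e4, hcc]
    ring
  have hB : classInner (indFun N θ) (c • oneG) = - (c * c) := by
    rw [frobenius N θ _ (IsClassFunction.smul c (IsIrrCharacter.isClassFunction h1G))]
    have : (fun h : N => (c • oneG) (h : G)) = c • oneH := rfl
    rw [this, hθ, classInner_sub_left, classInner_smul_left, classInner_smul_right,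
      classInner_smul_right, e1, e3, hcc]
    ring
  have hB' : classInner (c • oneG) (indFun N θ) = - (c * c) := by
    rw [← classInner_conj_symm, hB, map_neg, map_mul, hcc]
  have hC : classInner (c • oneG) (c • oneG) = c * c := by
    rw [classInner_smul_left, classInner_smul_right, e5, hcc]; ring
  change classInner (indFun N θ + c • oneG) (indFun N θ + c • oneG) = 1
  rw [classInner_add_left, classInner_add_right, classInner_add_right, hA, hB, hB', hC]
  ring

theorem ext_one_fun [Fintype G] : ext N (fun _ : N => (1 : ℂ)) = fun _ => 1 := by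
  funext g
  unfold Helper1FrobThm.ext
  have : ((fun _ : N => (1 : ℂ)) - (1 : ℂ) • fun _ : N => (1 : ℂ)) = fun _ => 0 := by
    funext x; simp
  rw [this, Pi.add_apply, indFun_apply]
  have h0 : ∀ x : G, extendByZero N (fun _ : N => (0 : ℂ)) (x⁻¹ * g * x) = 0 := by
    intro x
    by_cases hx : x⁻¹ * g * x ∈ N
    · rw [extendByZero_of_mem N _ hx]
    · exact extendByZero_of_not_mem N _ hx
  rw [Finset.sum_eq_zero (fun x _ => h0 x)]
  simp

theorem ext_isIrr [Fintype G] (W : WData N K) {φ : N → ℂ}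
    (hφ : IsIrrCharacter N φ) (hφK : ∀ n : N, (n : G) ∈ K → φ n = φ 1) :
    IsIrrCharacter G (ext N φ) := by
  by_cases hne : φ = fun _ => 1
  · rw [hne, ext_one_fun]
    exact Cfsg.Agent.Lib.Helper4Burnside.isIrrCharacter_one
  rcases gen_norm_one (ext_gen N hφ) (ext_norm' W hφ hφK hne) with h | h
  · exact h
  · exfalso
    obtain ⟨d, hd0, hd⟩ := IsIrrCharacter.exists_degree hφ
    obtain ⟨e, he0, he⟩ := IsIrrCharacter.exists_degree h
    rw [Pi.neg_apply, ext_one, hd] at he
    have : ((d + e : ℕ) : ℂ) = 0 := by push_cast; rw [← he]; ring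
    have h2 : d + e = 0 := by exact_mod_cast this
    omega


open Classical in
theorem sum_ite_mem [Fintype G] (M : Subgroup G) :
    ∑ g : G, (if g ∈ M then (0 : ℂ) else 1) = (Nat.card G : ℂ) - (Nat.card M : ℂ) := by
  classical
  have h1 : ∀ g : G, (if g ∈ M then (0 : ℂ) else 1) = 1 - (if g ∈ M then (1 : ℂ) else 0) := by
    intro g; split_ifs <;> simp
  rw [Finset.sum_congr rfl (fun g _ => h1 g), Finset.sum_sub_distrib, Finset.sum_boole]
  simp only [Finset.sum_const, Finset.card_univ, nsmul_eq_mul, mul_one]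
  rw [Nat.card_eq_fintype_card, Nat.card_eq_fintype_card, Fintype.card_subtype]

/-- **Wielandt's generalisation of the theorem of Frobenius** -/
theorem wielandt [Finite G] (W : WData N K) :
    ∃ M : Subgroup G, M.Normal ∧
      (∀ g, g ∈ M ↔ ∀ x : G, x⁻¹ * g * x ∈ N → x⁻¹ * g * x ∈ K) ∧
      Nat.card M * Nat.card N = Nat.card G * Nat.card K := by
  classical
  have : Fintype G := Fintype.ofFinite G
  have : Fintype N := Fintype.ofFinite N
  have hKn : (K.subgroupOf N).Normal := ⟨fun k hk n => by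
    rw [mem_subgroupOf] at hk ⊢
    exact W.normal n n.2 k hk⟩
  have hφK : ∀ ψ : IrrCharacter (N ⧸ K.subgroupOf N), ∀ n : N, (n : G) ∈ K →
      (inflate (K.subgroupOf N) ψ : N → ℂ) n = (inflate (K.subgroupOf N) ψ : N → ℂ) 1 :=
    fun ψ n hn => inflate_ker _ ψ (mem_subgroupOf.mpr hn)
  let M : Subgroup G := ⨅ ψ : IrrCharacter (N ⧸ K.subgroupOf N),
    charKer (IsIrrCharacter.isCharacter (ext_isIrr W (inflate _ ψ).2 (hφK ψ)))
  have hMn : M.Normal := normal_iInf_normal fun _ => inferInstance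
  have hM : ∀ g, g ∈ M ↔ ∀ x : G, x⁻¹ * g * x ∈ N → x⁻¹ * g * x ∈ K := by
    intro g
    constructor
    · intro hg x hx
      have hy : x⁻¹ * g * x ∈ M := by simpa using hMn.conj_mem g hg x⁻¹
      have hconj : IsConj (((⟨x⁻¹ * g * x, hx⟩ : N) : N ⧸ K.subgroupOf N)) 1 := by
        rw [isConj_iff_irr]
        intro ψ
        have h1 := (mem_iInf.mp hy) ψ
        rw [mem_charKer, ext_one] at h1
        have h2 := ext_of_mem' W _ (IsIrrCharacter.isClassFunction (inflate _ ψ).2) (hφK ψ)
          ⟨x⁻¹ * g * x, hx⟩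
        rw [h1] at h2
        exact h2.symm
      rw [isConj_comm, isConj_one_right] at hconj
      have := (QuotientGroup.eq_one_iff _).mp hconj
      exact mem_subgroupOf.mp this
    · intro hg
      rw [mem_iInf]; intro ψ
      rw [mem_charKer, ext_one]
      exact ext_of_not_conj _ (hφK ψ) hg
  refine ⟨M, hMn, hM, ?_⟩
  let θ : N → ℂ := fun n => if (n : G) ∈ K then 0 else 1
  have hθcl : IsClassFunction N θ := by
    intro a b
    have : ((b * a * b⁻¹ : N) : G) ∈ K ↔ (a : G) ∈ K := by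
      constructor
      · intro h
        have := W.normal (b⁻¹ : N) (b⁻¹ : N).2 _ h
        simpa [mul_assoc] using this
      · intro h
        exact W.normal b b.2 _ h
    simp only [θ, this]
  have hind : ∀ g, indFun N θ g = if g ∈ M then 0 else 1 := by
    intro g
    split_ifs with hg
    · exact ind_eq_zero θ (fun n hn => by simp [θ, hn]) ((hM g).mp hg)
    · rw [hM] at hg
      push Not at hg
      obtain ⟨x, hx, hxK⟩ := hg
      have h1 : indFun N θ g = indFun N θ (x⁻¹ * g * x) := by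
        have := indFun_isClassFunction N θ g x⁻¹
        rw [inv_inv] at this
        exact this.symm
      rw [h1]
      have hn1 : (⟨x⁻¹ * g * x, hx⟩ : N) ≠ 1 := by
        intro e
        apply hxK
        rw [show x⁻¹ * g * x = 1 from congrArg Subtype.val e]
        exact K.one_mem
      have := indFun_eq_of_TI N {t : G | t ∈ N ∧ t ∉ K} W.tiT θ hθcl (fun y hy => by
        have hyK : (y : G) ∈ K := by
          by_contra h
          exact hy ⟨y.2, h⟩
        simp [θ, hyK]) ⟨x⁻¹ * g * x, hx⟩ ⟨hx, hxK⟩ hn1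
      rw [this]
      simp [θ, hxK]
  have h1 := frobenius N θ (fun _ => 1) (fun _ _ => rfl)
  unfold classInner at h1
  simp only [map_one, mul_one, hind] at h1
  rw [sum_ite_mem] at h1
  have h2 : ∑ n : N, θ n = (Nat.card N : ℂ) - (Nat.card K : ℂ) := by
    have := sum_ite_mem (K.subgroupOf N)
    rw [Nat.card_congr (subgroupOfEquivOfLe W.le).toEquiv] at this
    rw [← this]
    rfl
  rw [h2] at h1
  have hG : (Nat.card G : ℂ) ≠ 0 := by exact_mod_cast Nat.card_pos.ne'
  have hN : (Nat.card N : ℂ) ≠ 0 := by exact_mod_cast Nat.card_pos.ne'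
  field_simp at h1
  have h3 : (Nat.card M : ℂ) * Nat.card N = Nat.card G * Nat.card K := by
    linear_combination -h1
  exact_mod_cast h3

end Cfsg.Agent.Lib.Helper32Wiel
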