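import Cfsg.Agent.Lib.Helper35Mat

set_option autoImplicit false

namespace Cfsg.Agent.Lib.Helper35Mat

/-! ## Counting vectors, stabiliser chains, signs of involutions -/

def allVecs {F : Type*} (al : List F) : ℕ → List (List F)
  | 0 => [[]]
  | k + 1 => al.flatMap (fun a => (allVecs al k).map (fun l => a :: l))

theorem mem_allVecs {F : Type*} (al : List F) (hal : ∀ a, a ∈ al) (l : List F) :
    l ∈ allVecs al l.length := by
  induction l with
  | nil => simp [allVecs]
  | cons a l ih =>
    simp only [List.length_cons, allVecs, List.mem_flatMap, List.mem_map]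
    exact ⟨a, hal a, l, ih, rfl⟩

theorem card_filter_le {ι F : Type*} [Fintype ι] [DecidableEq ι] [Fintype F] [DecidableEq F]
    (E : Enum ι) (al : List F) (hal : ∀ a, a ∈ al)
    (p : (ι → F) → Prop) [DecidablePred p] (p' : List F → Bool)
    (hp : ∀ v, p v → p' (E.en.map v) = true) :
    (Finset.univ.filter p).card ≤ (allVecs al E.en.length).countP p' := by
  classical
  rw [List.countP_eq_length_filter]
  refine le_trans ?_ (List.toFinset_card_le _)
  apply Finset.card_le_card_of_injOn (fun v => E.en.map v)
  · intro v hv
    have hv' : p v := by simpa using hv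
    simp only [List.coe_toFinset, Set.mem_setOf_eq, List.mem_filter]
    refine ⟨?_, hp v hv'⟩
    have := mem_allVecs al hal (E.en.map v)
    rwa [List.length_map] at this
  · intro u _ v _ h
    exact E.map_inj h

theorem card_filter_eq {V : Type*} [Fintype V] (p : V → Prop) [DecidablePred p] (a b : ℕ)
    (ha : (Finset.univ.filter p).card ≤ a) (hb : (Finset.univ.filter (fun v => ¬ p v)).card ≤ b)
    (hab : a + b = Fintype.card V) : (Finset.univ.filter p).card = a := by
  have := Finset.card_filter_add_card_filter_not (s := (Finset.univ : Finset V)) p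
  rw [Finset.card_univ] at this
  omega

/-- the subgroup fixing a point -/
def fixer {G X : Type*} [Group G] (act : G →* Equiv.Perm X) (x : X) : Subgroup G :=
  (MulAction.stabilizer (Equiv.Perm X) x).comap act

theorem mem_fixer {G X : Type*} [Group G] (act : G →* Equiv.Perm X) (x : X) (g : G) :
    g ∈ fixer act x ↔ act g x = x := Iff.rfl

inductive Chain {G X : Type*} [Group G] (act : G →* Equiv.Perm X) : Subgroup G → ℕ → Prop
  | base (K : Subgroup G) (h : ∀ g ∈ K, g = 1) : Chain act K 1
  | step (K : Subgroup G) (x : X) (S : Finset X) (c m : ℕ) (hS : ∀ g ∈ K, act g x ∈ S)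
      (hc : S.card ≤ c) (h : Chain act (K ⊓ fixer act x) m) : Chain act K (c * m)

theorem Chain.card_le {G X : Type*} [Group G] [Finite G] {act : G →* Equiv.Perm X}
    {K : Subgroup G} {m : ℕ} (h : Chain act K m) : Nat.card K ≤ m := by
  induction h with
  | base K h =>
    have : Subsingleton K := ⟨fun a b => Subtype.ext ((h a a.2).trans (h b b.2).symm)⟩
    exact Finite.card_le_one_iff_subsingleton.mpr this
  | step K x S c m hS hc _ ih =>
    letI : MulAction G X := MulAction.compHom X act
    have h1 := Subgroup.card_mul_index (MulAction.stabilizer K x)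
    rw [MulAction.index_stabilizer] at h1
    have h2 : (MulAction.orbit K x).ncard ≤ c := by
      refine le_trans ?_ hc
      rw [← Set.ncard_coe_finset S]
      apply Set.ncard_le_ncard _ (Finset.finite_toSet S)
      rintro _ ⟨g, rfl⟩
      exact hS g.1 g.2
    have h3 : Nat.card (MulAction.stabilizer K x) ≤ Nat.card (K ⊓ fixer act x : Subgroup G) := by
      apply Nat.card_le_card_of_injective
        (fun g => (⟨g.1.1, g.1.2, g.2⟩ : (K ⊓ fixer act x : Subgroup G)))
      intro a b hab
      have : a.1.1 = b.1.1 := congrArg (fun z : (K ⊓ fixer act x : Subgroup G) => z.1) hab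
      exact Subtype.ext (Subtype.ext this)
    calc Nat.card K = Nat.card (MulAction.stabilizer K x) * (MulAction.orbit K x).ncard := h1.symm
      _ ≤ m * c := Nat.mul_le_mul (h3.trans ih) h2
      _ = c * m := Nat.mul_comm _ _

theorem sign_of_sq {α : Type*} [Fintype α] [DecidableEq α] (σ : Equiv.Perm α) (h : σ ^ 2 = 1)
    (k : ℕ) (hk : σ.support.card = 2 * k) : Equiv.Perm.sign σ = (-1) ^ k := by
  have h2 : ∀ n ∈ σ.cycleType, n = 2 := by
    intro n hn
    have h3 := Equiv.Perm.dvd_of_mem_cycleType hn
    have h4 : orderOf σ ∣ 2 := orderOf_dvd_of_pow_eq_one h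
    have h5 := Equiv.Perm.two_le_of_mem_cycleType hn
    have := Nat.le_of_dvd (by norm_num) (h3.trans h4)
    omega
  have h6 : σ.cycleType = Multiset.replicate (Multiset.card σ.cycleType) 2 :=
    Multiset.eq_replicate_card.mpr h2
  have h7 := Equiv.Perm.sum_cycleType σ
  rw [h6, Multiset.sum_replicate, hk] at h7
  have h8 : Multiset.card σ.cycleType = k := by
    simp only [Multiset.card_replicate, smul_eq_mul] at h7
    omega
  rw [Equiv.Perm.sign_of_cycleType, h6, Multiset.sum_replicate, Multiset.card_replicate, h8,
    smul_eq_mul, pow_add, pow_mul]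
  norm_num

/-- the action on an invariant subset -/
def subPerm {G V : Type*} [Group G] (act : G →* Equiv.Perm V) (P : V → Prop)
    (hP : ∀ g v, P v → P (act g v)) : G →* Equiv.Perm {v // P v} where
  toFun g :=
    { toFun := fun v => ⟨act g v.1, hP g _ v.2⟩
      invFun := fun v => ⟨act g⁻¹ v.1, hP _ _ v.2⟩
      left_inv := fun v => by
        apply Subtype.ext
        show act g⁻¹ (act g v.1) = v.1
        rw [← Equiv.Perm.mul_apply, ← map_mul, inv_mul_cancel, map_one]; rfl
      right_inv := fun v => by
        apply Subtype.ext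
        show act g (act g⁻¹ v.1) = v.1
        rw [← Equiv.Perm.mul_apply, ← map_mul, mul_inv_cancel, map_one]; rfl }
  map_one' := by
    ext v
    show act 1 v.1 = v.1
    rw [map_one]; rfl
  map_mul' a b := by
    ext v
    show act (a * b) v.1 = act a (act b v.1)
    rw [map_mul]; rfl

theorem support_subPerm_card {G V : Type*} [Group G] [Fintype V] [DecidableEq V]
    (act : G →* Equiv.Perm V) (P : V → Prop) [DecidablePred P]
    (hP : ∀ g v, P v → P (act g v)) (g : G) :
    (subPerm act P hP g).support.card =
      (Finset.univ.filter (fun v => P v ∧ act g v ≠ v)).card := by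
  apply Finset.card_bij (fun x _ => x.1)
  · intro x hx
    rw [Equiv.Perm.mem_support] at hx
    simp only [Finset.mem_filter, Finset.mem_univ, true_and]
    exact ⟨x.2, fun h => hx (Subtype.ext h)⟩
  · intro a _ b _ h
    exact Subtype.ext h
  · intro v hv
    simp only [Finset.mem_filter, Finset.mem_univ, true_and] at hv
    refine ⟨⟨v, hv.1⟩, ?_, rfl⟩
    rw [Equiv.Perm.mem_support]
    intro h
    exact hv.2 (congrArg Subtype.val h)

/-- the action of a matrix group on vectors -/
def matPerm {H : Type*} [Group H] {ι F : Type*} [Fintype ι] [DecidableEq ι] [CommRing F]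
    (toMat : H →* Matrix ι ι F) : H →* Equiv.Perm (ι → F) where
  toFun h :=
    { toFun := fun v => (toMat h).mulVec v
      invFun := fun v => (toMat h⁻¹).mulVec v
      left_inv := fun v => by
        show (toMat h⁻¹).mulVec ((toMat h).mulVec v) = v
        rw [Matrix.mulVec_mulVec, ← map_mul, inv_mul_cancel, map_one, Matrix.one_mulVec]
      right_inv := fun v => by
        show (toMat h).mulVec ((toMat h⁻¹).mulVec v) = v
        rw [Matrix.mulVec_mulVec, ← map_mul, mul_inv_cancel, map_one, Matrix.one_mulVec] }
  map_one' := by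
    ext v
    show (toMat 1).mulVec v _ = v _
    rw [map_one, Matrix.one_mulVec]
  map_mul' a b := by
    ext v
    show (toMat (a * b)).mulVec v _ = (toMat a).mulVec ((toMat b).mulVec v) _
    rw [map_mul, Matrix.mulVec_mulVec]

/-- a matrix fixing the columns of an invertible matrix is the identity -/
theorem eq_one_of_fix_cols {ι F : Type*} [Fintype ι] [DecidableEq ι] [CommRing F]
    (A M M' : Matrix ι ι F) (hM : M * M' = 1) (h : ∀ j, A.mulVec (fun i => M i j) = fun i => M i j) :
    A = 1 := by
  have h1 : A * M = M := by
    ext i j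
    exact congrFun (h j) i
  calc A = A * (M * M') := by rw [hM, mul_one]
    _ = M * M' := by rw [← mul_assoc, h1]
    _ = 1 := hM


/-- the numerical hypotheses of `Chain.ofList` -/
def cardsOK {X : Type*} (S : List X → X → Finset X) : List (X × ℕ) → List X → Prop
  | [], _ => True
  | (x, c) :: t, done => (S done x).card ≤ c ∧ cardsOK S t (x :: done)

theorem Chain.ofList {G X : Type*} [Group G] (act : G →* Equiv.Perm X)
    (S : List X → X → Finset X)
    (hS : ∀ fs x g, (∀ y ∈ fs, act g y = y) → act g x ∈ S fs x) :
    ∀ (todo : List (X × ℕ)) (done : List X) (K : Subgroup G),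
      (∀ g ∈ K, ∀ y ∈ done, act g y = y) → cardsOK S todo done →
      (∀ g ∈ K, (∀ y ∈ done, act g y = y) → (∀ y ∈ todo, act g y.1 = y.1) → g = 1) →
      Chain act K (todo.map Prod.snd).prod := by
  intro todo
  induction todo with
  | nil =>
    intro done K hK _ hfin
    exact Chain.base K (fun g hg => hfin g hg (hK g hg) (by simp))
  | cons xc t ih =>
    obtain ⟨x, c⟩ := xc
    intro done K hK hcs hfin
    rw [List.map_cons, List.prod_cons]
    refine Chain.step K x (S done x) c _ (fun g hg => hS done x g (hK g hg)) hcs.1
      (ih (x :: done) (K ⊓ fixer act x) ?_ hcs.2 ?_)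
    · intro g hg y hy
      rcases List.mem_cons.mp hy with rfl | hy
      · exact hg.2
      · exact hK g hg.1 y hy
    · intro g hg h1 h2
      refine hfin g hg.1 (fun y hy => h1 y (List.mem_cons_of_mem _ hy)) ?_
      intro y hy
      rcases List.mem_cons.mp hy with rfl | hy
      · exact h1 _ List.mem_cons_self
      · exact h2 y hy

theorem two_mul_card_ker_le {G A : Type*} [Group G] [Finite G] [Group A] (f : G →* A) (g : G)
    (hg : f g ≠ 1) : 2 * Nat.card f.ker ≤ Nat.card G := by
  have h1 := Subgroup.card_mul_index f.ker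
  have h2 : f.ker.index ≠ 1 := by
    intro h
    rw [Subgroup.index_eq_one] at h
    exact hg (by rw [← MonoidHom.mem_ker, h]; trivial)
  have h3 : f.ker.index ≠ 0 := Subgroup.index_ne_zero_of_finite
  have h4 : 2 ≤ f.ker.index := by omega
  calc 2 * Nat.card f.ker ≤ f.ker.index * Nat.card f.ker := Nat.mul_le_mul_right _ h4
    _ = Nat.card G := by rw [mul_comm]; exact h1

/-- two independent characters cut the commutator subgroup down by a factor four -/
theorem four_mul_card_commutator_le {G A B : Type*} [Group G] [Finite G] [CommGroup A] [CommGroup B]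
    (f1 : G →* A) (f2 : G →* B) (g1 g2 : G) (h1 : f1 g1 ≠ 1) (h2 : f1 g2 = 1) (h3 : f2 g2 ≠ 1) :
    4 * Nat.card (commutator G) ≤ Nat.card G := by
  have a1 := two_mul_card_ker_le f1 g1 h1
  have a2 := two_mul_card_ker_le (f2.comp f1.ker.subtype) ⟨g2, h2⟩ h3
  have a3 : Nat.card (commutator G) ≤ Nat.card (f2.comp f1.ker.subtype).ker := by
    apply Nat.card_le_card_of_injective
      (fun w => (⟨⟨w.1, Abelianization.commutator_subset_ker f1 w.2⟩,
        Abelianization.commutator_subset_ker f2 w.2⟩ : (f2.comp f1.ker.subtype).ker))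
    intro a b hab
    have : a.1 = b.1 := congrArg (fun z : (f2.comp f1.ker.subtype).ker => z.1.1) hab
    exact Subtype.ext this
  omega

/-! ### simple groups -/

theorem commutator_eq_top_of_simple {S : Type*} [Group S] [IsSimpleGroup S]
    (hc : ¬ (Nat.card S).Prime) : commutator S = ⊤ := by
  rcases (inferInstance : (commutator S).Normal).eq_bot_or_eq_top with h | h
  · exfalso
    have hcomm : ∀ x y : S, x * y = y * x := by
      intro x y
      have h1 : x * y * x⁻¹ * y⁻¹ ∈ commutator S :=
        Subgroup.commutator_mem_commutator (Subgroup.mem_top x) (Subgroup.mem_top y)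
      rw [h, Subgroup.mem_bot] at h1
      calc x * y = (x * y * x⁻¹ * y⁻¹) * (y * x) := by group
        _ = y * x := by rw [h1, one_mul]
    letI : CommGroup S := { (inferInstance : Group S) with mul_comm := hcomm }
    exact hc (IsSimpleGroup.prime_card (α := S))
  · exact h

theorem center_eq_bot_of_simple {S : Type*} [Group S] [IsSimpleGroup S]
    (hc : ¬ (Nat.card S).Prime) : Subgroup.center S = ⊥ := by
  rcases (inferInstance : (Subgroup.center S).Normal).eq_bot_or_eq_top with h | h
  · exact h
  · exfalso
    have hcomm : ∀ x y : S, x * y = y * x := by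
      intro x y
      have h1 : x ∈ Subgroup.center S := by rw [h]; trivial
      exact (Subgroup.mem_center_iff.mp h1 y).symm
    letI : CommGroup S := { (inferInstance : Group S) with mul_comm := hcomm }
    exact hc (IsSimpleGroup.prime_card (α := S))

end Cfsg.Agent.Lib.Helper35Mat
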