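import Cfsg.Agent.Lib.Helper35HeP

set_option autoImplicit false
set_option maxRecDepth 100000

namespace Cfsg.Agent.Lib.Helper35HeP

open Cfsg.Agent.Lib.Helper35TC

theorem chkU_11_0 : allD U.chkRow 11 0 = true := by decide +kernel
theorem chkU_11_1 : allD U.chkRow 11 2048 = true := by decide +kernel
theorem chkU_11_2 : allD U.chkRow 11 4096 = true := by decide +kernel
theorem chkU_11_3 : allD U.chkRow 11 6144 = true := by decide +kernel
theorem chkU_11_4 : allD U.chkRow 11 8192 = true := by decide +kernel
theorem chkU_11_5 : allD U.chkRow 11 10240 = true := by decide +kernel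
theorem chkU_11_6 : allD U.chkRow 11 12288 = true := by decide +kernel
theorem chkU_11_7 : allD U.chkRow 11 14336 = true := by decide +kernel
theorem chkU_11_8 : allD U.chkRow 11 16384 = true := by decide +kernel
theorem chkU_11_9 : allD U.chkRow 11 18432 = true := by decide +kernel
theorem chkU_11_10 : allD U.chkRow 11 20480 = true := by decide +kernel
theorem chkU_11_11 : allD U.chkRow 11 22528 = true := by decide +kernel
theorem chkU_11_12 : allD U.chkRow 11 24576 = true := by decide +kernel
theorem chkU_11_13 : allD U.chkRow 11 26624 = true := by decide +kernel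
theorem chkU_11_14 : allD U.chkRow 11 28672 = true := by decide +kernel
theorem chkU_11_15 : allD U.chkRow 11 30720 = true := by decide +kernel
theorem cntU_14_0 : cntD U.live 14 0 = 16319 := by decide +kernel
theorem cntU_14_1 : cntD U.live 14 16384 = 5185 := by decide +kernel
theorem chkP_9_0 : allD P.chkPt 9 0 = true := by decide +kernel
theorem chkP_9_1 : allD P.chkPt 9 512 = true := by decide +kernel
theorem chkP_9_2 : allD P.chkPt 9 1024 = true := by decide +kernel
theorem chkP_9_3 : allD P.chkPt 9 1536 = true := by decide +kernel
theorem chkP_9_4 : allD P.chkPt 9 2048 = true := by decide +kernel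
theorem chkP_9_5 : allD P.chkPt 9 2560 = true := by decide +kernel
theorem chkP_9_6 : allD P.chkPt 9 3072 = true := by decide +kernel
theorem chkP_9_7 : allD P.chkPt 9 3584 = true := by decide +kernel
theorem chkP_9_8 : allD P.chkPt 9 4096 = true := by decide +kernel
theorem chkP_9_9 : allD P.chkPt 9 4608 = true := by decide +kernel

end Cfsg.Agent.Lib.Helper35HeP
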