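import Cfsg.Agent.Lib.Helper35HeP

set_option autoImplicit false
set_option maxRecDepth 100000

namespace Cfsg.Agent.Lib.Helper35HeP

open Cfsg.Agent.Lib.Helper35TC

theorem chkP_9_10 : allD P.chkPt 9 5120 = true := by decide +kernel
theorem chkP_9_11 : allD P.chkPt 9 5632 = true := by decide +kernel
theorem chkP_9_12 : allD P.chkPt 9 6144 = true := by decide +kernel
theorem chkP_9_13 : allD P.chkPt 9 6656 = true := by decide +kernel
theorem chkP_9_14 : allD P.chkPt 9 7168 = true := by decide +kernel
theorem chkP_9_15 : allD P.chkPt 9 7680 = true := by decide +kernel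
theorem chkP_9_16 : allD P.chkPt 9 8192 = true := by decide +kernel
theorem chkP_9_17 : allD P.chkPt 9 8704 = true := by decide +kernel
theorem chkP_9_18 : allD P.chkPt 9 9216 = true := by decide +kernel
theorem chkP_9_19 : allD P.chkPt 9 9728 = true := by decide +kernel
theorem chkP_9_20 : allD P.chkPt 9 10240 = true := by decide +kernel
theorem chkP_9_21 : allD P.chkPt 9 10752 = true := by decide +kernel
theorem chkP_9_22 : allD P.chkPt 9 11264 = true := by decide +kernel
theorem chkP_9_23 : allD P.chkPt 9 11776 = true := by decide +kernel
theorem chkP_9_24 : allD P.chkPt 9 12288 = true := by decide +kernel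
theorem chkP_9_25 : allD P.chkPt 9 12800 = true := by decide +kernel
theorem chkP_9_26 : allD P.chkPt 9 13312 = true := by decide +kernel
theorem chkP_9_27 : allD P.chkPt 9 13824 = true := by decide +kernel
theorem chkP_9_28 : allD P.chkPt 9 14336 = true := by decide +kernel
theorem chkP_9_29 : allD P.chkPt 9 14848 = true := by decide +kernel
theorem chkP_9_30 : allD P.chkPt 9 15360 = true := by decide +kernel
theorem chkP_9_31 : allD P.chkPt 9 15872 = true := by decide +kernel
theorem chkP_9_32 : allD P.chkPt 9 16384 = true := by decide +kernel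
theorem chkP_9_33 : allD P.chkPt 9 16896 = true := by decide +kernel
theorem chkP_9_34 : allD P.chkPt 9 17408 = true := by decide +kernel
theorem chkP_9_35 : allD P.chkPt 9 17920 = true := by decide +kernel
theorem chkP_9_36 : allD P.chkPt 9 18432 = true := by decide +kernel
theorem chkP_9_37 : allD P.chkPt 9 18944 = true := by decide +kernel

end Cfsg.Agent.Lib.Helper35HeP
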