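import Cfsg.Agent.Lib.Helper35HeZaD

set_option autoImplicit false
set_option maxRecDepth 100000

/-! The centraliser of the involution `e` in the presented Held group. -/

namespace Cfsg.Agent.Lib.Helper35HeZa

open Cfsg.Agent.Lib.Helper35TC Cfsg.Spor

def zE : WExp He.Gen := .of .e

noncomputable def z : KC.Grp := PresentedGroup.mk KC.rels zE.eval

/-- word identities, checked on the base of the representation on 2058 points -/
theorem weo (e : WExp He.Gen)
    (he : Cfsg.Agent.Lib.Helper35HeA.BD.fixChk KA.P (e.app KA.code KA.P.iv) = true) :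
    (PresentedGroup.mk KC.rels e.eval : KC.Grp) = 1 :=
  Cfsg.Agent.Lib.Helper35HeFin.word_eq_one e he

theorem z_sq : z ^ 2 = 1 := by
  have h := weo (.pow zE 2) (by decide +kernel)
  rw [WExp.eval, map_pow] at h
  exact h

theorem z_ne : z ≠ 1 := okC.mk_ne_one zE 1 (by decide) (by decide +kernel)

theorem z_order : orderOf z = 2 := orderOf_eq_prime z_sq z_ne

theorem z_mem : z ∈ KC.H := okC.mk_mem_H zE (by decide +kernel)

def commE (e : WExp He.Gen) : WExp He.Gen := .mul (.mul (.mul e zE) (.inv e)) (.inv zE)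

theorem hcm : KC.subExps.all (fun e =>
    Cfsg.Agent.Lib.Helper35HeA.BD.fixChk KA.P ((commE e).app KA.code KA.P.iv)) = true := by
  decide +kernel

theorem H_le : KC.H ≤ Subgroup.centralizer {z} := by
  apply okC.H_le
  intro e he
  have h1 := weo _ (List.all_eq_true.mp hcm e he)
  rw [commE, WExp.eval, WExp.eval, WExp.eval, WExp.eval, WExp.eval, map_mul, map_mul, map_mul,
    map_inv, map_inv] at h1
  rw [Subgroup.mem_centralizer_singleton_iff]
  have h2 : PresentedGroup.mk KC.rels e.eval * z * (PresentedGroup.mk KC.rels e.eval)⁻¹ * z⁻¹ = 1 :=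
    h1
  have h3 := mul_inv_eq_one.mp h2
  exact mul_inv_eq_iff_eq_mul.mp h3

def gen (l : ℕ) : He.Gen := [He.Gen.a, .b, .c, .d, .e, .f, .g].getD l .a

theorem code_gen : ∀ l < 7, KC.code (gen l) = l := by decide

def toE : List ℕ → WExp He.Gen
  | [] => .pow (.of .a) 0
  | l :: w => .mul (toE w) (.of (gen l))

theorem toE_app (iv : ℕ → ℕ) : ∀ w : List ℕ, (∀ l ∈ w, l < 7) → (toE w).app KC.code iv = w
  | [], _ => rfl
  | l :: w, h => by
    rw [toE, WExp.app, WExp.app, toE_app iv w (fun x hx => h x (List.mem_cons_of_mem _ hx)),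
      code_gen l (h l List.mem_cons_self)]
    rfl

theorem le_H : Subgroup.centralizer {z} ≤ KC.H := by
  intro g hg
  rw [Subgroup.mem_centralizer_singleton_iff] at hg
  rw [okC.mem_H_iff]
  have hz0 : okC.phi z okC.zero = okC.zero := (okC.mem_H_iff z).mp z_mem
  have hfix : okC.phi z (okC.phi g okC.zero) = okC.phi g okC.zero := by
    rw [← Equiv.Perm.mul_apply, ← map_mul, ← hg, map_mul, Equiv.Perm.mul_apply, hz0]
  have hlt : (okC.phi g okC.zero).val < 187425 := (okC.phi g okC.zero).2
  have hc := all_of_allD _ 18 187425 (by norm_num) hscan _ hlt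
  have hfix' : PC.A (okC.phi g okC.zero).val 4 = (okC.phi g okC.zero).val := by
    have h1 := okC.phi_mk_apply zE (okC.phi g okC.zero)
    have h2 : okC.phi (PresentedGroup.mk KC.rels zE.eval) (okC.phi g okC.zero) =
      okC.phi g okC.zero := hfix
    rw [h2] at h1
    exact h1.symm
  generalize hu : okC.phi g okC.zero = u at hlt hc hfix'
  unfold scan at hc
  rw [Bool.or_eq_true, Bool.or_eq_true, Bool.or_eq_true] at hc
  rcases hc with ((hc | hc) | hc) | hc
  · exact absurd (Nat.le_of_ble_eq_true hc) (by omega)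
  · rw [hfix', Nat.beq_refl] at hc
    exact absurd hc (by decide)
  · exact Fin.ext (Nat.eq_of_beq_eq_true hc)
  exfalso
  rw [List.any_eq_true] at hc
  obtain ⟨⟨j, w⟩, -, hc⟩ := hc
  unfold chkEnt at hc
  rw [Bool.and_eq_true, Bool.and_eq_true, Bool.and_eq_true, List.all_eq_true] at hc
  obtain ⟨hj, ⟨h1, h2⟩, h3⟩ := hc
  have hw : ∀ l ∈ w, l < 7 := fun l hl => Nat.le_of_ble_eq_true (h1 l hl)
  have hj' : j = u.val := Nat.eq_of_beq_eq_true hj
  have h2' : PC.walkA w 0 = j := Nat.eq_of_beq_eq_true h2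
  have happ : (toE w).app KC.code KC.P.iv = w := toE_app _ w hw
  -- the representative
  have hr0 : okC.phi (PresentedGroup.mk KC.rels (toE w).eval) okC.zero = u := by
    apply Fin.ext
    rw [okC.phi_mk_apply, happ, ← hj']
    exact h2'
  have hmem : (PresentedGroup.mk KC.rels (toE w).eval)⁻¹ * g ∈ KC.H := by
    rw [okC.mem_H_iff, map_mul, Equiv.Perm.mul_apply, hu, map_inv, ← hr0]
    simp
  have hcomm1 := Subgroup.mem_centralizer_singleton_iff.mp (H_le hmem)
  -- hence the representative commutes with `z`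
  have hcomm2 : PresentedGroup.mk KC.rels (toE w).eval * z =
      z * PresentedGroup.mk KC.rels (toE w).eval := by
    generalize PresentedGroup.mk KC.rels (toE w).eval = r at hcomm1
    have e1 : r = g * (r⁻¹ * g)⁻¹ := by group
    have e2 : (r⁻¹ * g)⁻¹ * z = z * (r⁻¹ * g)⁻¹ := by
      rw [eq_mul_inv_iff_mul_eq, mul_assoc, ← hcomm1, ← mul_assoc, inv_mul_cancel, one_mul]
    rw [e1, mul_assoc, e2, ← mul_assoc, hg, mul_assoc]
  have h4 : PresentedGroup.mk KC.rels (WExp.mul (toE w) zE).eval =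
      PresentedGroup.mk KC.rels (WExp.mul zE (toE w)).eval := by
    rw [WExp.eval, WExp.eval, map_mul, map_mul]
    exact hcomm2
  have h5 := okC.phi_mk_apply (WExp.mul (toE w) zE) ⟨1, by decide⟩
  have h6 := okC.phi_mk_apply (WExp.mul zE (toE w)) ⟨1, by decide⟩
  rw [h4, h6, WExp.app, WExp.app, happ] at h5
  have h7 : PC.walkA (w ++ [4]) 1 = PC.walkA (4 :: w) 1 := h5
  simp only [] at h3
  rw [h7, Nat.beq_refl] at h3
  exact absurd h3 (by decide)

theorem cent_eq : Subgroup.centralizer {z} = KC.H := le_antisymm le_H H_le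

theorem card_H : Nat.card KC.H = 21504 := by
  have h1 := KC.H.card_mul_index
  rw [okC.index_eq] at h1
  have h2 : Nat.card KC.Grp = 4030387200 := Cfsg.Agent.Lib.Helper35HeFin.card_eq
  rw [h2] at h1
  have h3 : KC.P.n = 187425 := rfl
  rw [h3] at h1
  exact Nat.eq_of_mul_eq_mul_right (by norm_num : 0 < 187425) (h1.trans (by norm_num))

end Cfsg.Agent.Lib.Helper35HeZa
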