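import Cfsg.Agent.Lib.Helper35HeZcD

set_option autoImplicit false
set_option maxRecDepth 100000

/-! An isomorphism from the presented group `2^{1+6}:L3(2)` to the centraliser of a transvection
in `SL(5,2)`. -/

namespace Cfsg.Agent.Lib.Helper35HeZc

open Cfsg.Agent.Lib.Helper35TC Cfsg.Agent.Lib.Helper35Pk Cfsg.Agent.Lib.Helper35HeP
open Cfsg.Agent.Lib.Helper35HeZd

theorem htab : ∀ l < 7, chkTab 8 2 5 (tab l) = true := by decide +kernel

theorem hsq : ∀ l < 7, (List.range 5).all (fun j =>
    Nat.beq (mv 8 2 5 (tab l) (mv 8 2 5 (tab l) (Nat.pow 8 j))) (Nat.pow 8 j)) = true := by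
  decide +kernel

theorem sq (l : ℕ) (hl : l < 7) : mat 8 2 5 (tab l) * mat 8 2 5 (tab l) = 1 :=
  mat_mul_eq_one 8 2 5 (by norm_num) (by norm_num) (by norm_num) _ _ (htab l hl) (htab l hl)
    (hsq l hl)

theorem F_sq : ∀ x : F, x * x = 1 → x = 1 := by decide

theorem det1 (l : ℕ) (hl : l < 7) : (mat 8 2 5 (tab l)).det = 1 := by
  have h := congrArg Matrix.det (sq l hl)
  rw [Matrix.det_mul, Matrix.det_one] at h
  exact F_sq _ h

noncomputable def mk1 (l : ℕ) (h : l < 7) : SL := ⟨mat 8 2 5 (tab l), det1 l h⟩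

noncomputable def val (l : ℕ) : SL := if h : l < 7 then mk1 l h else 1

def rhoS : SL →* Matrix J J F where
  toFun g := g.1
  map_one' := rfl
  map_mul' _ _ := rfl

theorem rhoS_inj : Function.Injective rhoS := fun _ _ h => Subtype.ext h

theorem val_coe (l : ℕ) (hl : l < 7) : rhoS (val l) = mat 8 2 5 (tab l) := by
  rw [val, dif_pos hl]
  rfl

theorem val_sq (l : ℕ) : val l * val l = 1 := by
  by_cases h : l < 7
  · apply rhoS_inj
    rw [map_mul, map_one, val_coe l h]
    exact sq l h
  · simp [val, h]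

theorem hcomm : ∀ l < 7, ∀ i j : J, (mat 8 2 5 (tab l) * S0) i j = (S0 * mat 8 2 5 (tab l)) i j := by
  decide +kernel

theorem val_comm (l : ℕ) (hl : l < 7) : val l * s0 = s0 * val l := by
  apply rhoS_inj
  rw [map_mul, map_mul, val_coe l hl]
  ext i j
  exact hcomm l hl i j

attribute [irreducible] val

def IsInvFn {T : Type} [Group T] (vl : ℕ → T) : Prop := ∀ l, vl (id l) = (vl l)⁻¹

theorem isInvFn_of_sq {T : Type} [Group T] (vl : ℕ → T) (h : ∀ l, vl l * vl l = 1) : IsInvFn vl :=
  fun l => eq_inv_of_mul_eq_one_left (h l)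

theorem val_inv : IsInvFn val := isInvFn_of_sq val val_sq

theorem one_of_chk (w : List ℕ) (h : chk 8 2 5 tab 7 w = true) : wordVal val w = 1 := by
  apply rhoS_inj
  rw [map_one]
  exact wordVal_of_chk 8 2 5 (by norm_num) (by norm_num) (by norm_num) rhoS val tab 7 htab
    val_coe w h

theorem hx : K.relExps.all (fun e => chk 8 2 5 tab 7 (e.app code id)) = true := by decide +kernel

theorem hrel : ∀ e ∈ K.relExps, e.evalIn (fun x => val (code x)) = 1 := by
  intro e he
  have h1 := List.all_eq_true.mp hx e he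
  have h2 := one_of_chk _ h1
  rw [← evalIn_eq_wordVal val id val_inv code e] at h2
  exact h2

noncomputable def psi : K.Grp →* SL := ok.homTo (fun x => val (code x)) hrel

theorem code_lt (x : Gen) : code x < 7 := by cases x <;> decide

theorem psi_range : psi.range ≤ Γ := by
  apply Pkg.range_le_of_gens
  intro a
  rw [psi, Pkg.Ok.homTo_of, Subgroup.mem_centralizer_singleton_iff]
  exact val_comm _ (code_lt a)

def gen (l : ℕ) : Gen := [Gen.a, .b, .c, .f, .g, .u, .v].getD l .a

theorem code_gen : ∀ l < 7, code (gen l) = l := by decide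

def toE : List ℕ → WExp Gen
  | [] => .pow (.of .a) 0
  | l :: w => .mul (toE w) (.of (gen l))

theorem toE_app (iv : ℕ → ℕ) : ∀ w : List ℕ, (∀ l ∈ w, l < 7) → (toE w).app code iv = w
  | [], _ => rfl
  | l :: w, h => by
    rw [toE, WExp.app, WExp.app, toE_app iv w (fun x hx => h x (List.mem_cons_of_mem _ hx)),
      code_gen l (h l List.mem_cons_self)]
    rfl

theorem psi_inj : Function.Injective psi := by
  rw [injective_iff_map_eq_one]
  intro g hg
  by_contra hne
  have hu0 : (ok.phi g ok.zero).val ≠ 0 := by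
    intro h0
    apply hne
    have h1 : g ∈ K.H := (ok.mem_H_iff g).mpr (Fin.ext h0)
    rw [ok.H_eq_bot rfl] at h1
    exact h1
  have hlt : (ok.phi g ok.zero).val < 21504 := (ok.phi g ok.zero).2
  have hc := all_of_allD _ 15 21504 (by norm_num) hchk _ hlt
  generalize hu : ok.phi g ok.zero = u at hu0 hlt hc
  unfold chkU at hc
  rw [Bool.or_eq_true, Bool.or_eq_true] at hc
  rcases hc with (hc | hc) | hc
  · exact absurd (Nat.le_of_ble_eq_true hc) (by omega)
  · exact hu0 (Nat.eq_of_beq_eq_true hc)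
  generalize desc _ _ = w at hc
  unfold chkW at hc
  rw [Bool.and_eq_true, Bool.and_eq_true, List.all_eq_true, List.any_eq_true] at hc
  obtain ⟨⟨h1, h2⟩, j, hj, h3⟩ := hc
  have hw : ∀ l ∈ w, l < 7 := fun l hl => Nat.le_of_ble_eq_true (h1 l hl)
  have h2' : P.walkA w u = 0 := Nat.eq_of_beq_eq_true h2
  have h4 : PresentedGroup.mk K.rels (toE w).eval * g ∈ K.H := by
    rw [ok.mem_H_iff, map_mul, Equiv.Perm.mul_apply, hu]
    apply Fin.ext
    rw [ok.phi_mk_apply]
    have : (toE w).app K.code K.P.iv = w := toE_app _ w hw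
    rw [this]
    exact h2'
  rw [ok.H_eq_bot rfl, Subgroup.mem_bot] at h4
  have h5 := congrArg psi h4
  rw [map_mul, hg, mul_one, map_one, psi, Pkg.Ok.homTo_mk,
    evalIn_eq_wordVal val id val_inv code, toE_app _ w hw] at h5
  refine ne_one_of_walk 8 2 5 (by norm_num) (by norm_num) (by norm_num) rhoS val tab 7 htab
    val_coe w hw j (List.mem_range.mp hj) ?_ h5
  intro h6
  have h7 : Nat.beq (walk 8 2 5 tab w (Nat.pow 8 j)) (Nat.pow 8 j) = true := by
    rw [show Nat.pow 8 j = 8 ^ j from rfl, h6]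
    exact Nat.beq_refl _
  rw [h7] at h3
  exact absurd h3 (by decide)

theorem card_P : Nat.card K.Grp = 21504 := by
  have h1 := ok.index_eq
  rw [ok.H_eq_bot rfl, Subgroup.index_bot] at h1
  exact h1

/-- the presented group is isomorphic to the centraliser of the transvection -/
theorem iso : Nonempty (K.Grp ≃* Γ) := by
  let psi' : K.Grp →* Γ := psi.codRestrict Γ (fun x => psi_range ⟨x, rfl⟩)
  have hi : Function.Injective psi' := by
    intro x y hxy
    exact psi_inj (congrArg Subtype.val hxy)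
  have : Finite Γ := inferInstance
  exact ⟨MulEquiv.ofBijective psi' (hi.bijective_of_nat_card_le (by rw [card_P]; exact card_le))⟩

end Cfsg.Agent.Lib.Helper35HeZc
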