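import Cfsg.Agent.Lib.Helper35HeZa
import Cfsg.Agent.Lib.Helper35HeZc

set_option autoImplicit false
set_option maxRecDepth 100000

/-! The centraliser of the involution `e` in the presented Held group is isomorphic to the
centraliser of a transvection in `SL(5,2)`. -/

namespace Cfsg.Agent.Lib.Helper35HeZb

open Cfsg.Agent.Lib.Helper35TC Cfsg.Spor Cfsg.Agent.Lib.Helper35HeZa

noncomputable abbrev KP := Cfsg.Agent.Lib.Helper35HeP.K

theorem okP : KP.Ok := Cfsg.Agent.Lib.Helper35HeP.ok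

def gmap : Cfsg.Agent.Lib.Helper35HeP.Gen → WExp He.Gen
  | .a => .of .a
  | .b => .of .b
  | .c => .of .c
  | .f => .of .f
  | .g => .of .g
  | .u => (.mul (.mul (.mul (.mul (.mul (.mul (.mul (.mul (.of .d) (.of .e)) (.of .f)) (.of .d)) (.of .c)) (.of .d)) (.of .f)) (.of .e)) (.of .d))
  | .v => (.mul (.mul (.mul (.mul (.mul (.mul (.mul (.mul (.of .d) (.of .e)) (.of .g)) (.of .d)) (.of .c)) (.of .d)) (.of .g)) (.of .e)) (.of .d))

theorem hx : KP.relExps.all (fun e =>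
    Cfsg.Agent.Lib.Helper35HeA.BD.fixChk KA.P ((e.bind gmap).app KA.code KA.P.iv)) = true := by
  decide +kernel

theorem hrel : ∀ e ∈ KP.relExps, PresentedGroup.mk KC.rels (e.bind gmap).eval = 1 :=
  fun e he => weo _ (List.all_eq_true.mp hx e he)

noncomputable def phi : KP.Grp →* KC.Grp := okP.homW KC gmap hrel

theorem gmap_mem (x : Cfsg.Agent.Lib.Helper35HeP.Gen) : gmap x ∈ KC.subExps := by
  cases x <;> simp [gmap, KC, Cfsg.Agent.Lib.Helper35HeC.K, Cfsg.Agent.Lib.Helper35HeC.subExps]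

theorem mem_gmap : ∀ e ∈ KC.subExps, ∃ x, e = gmap x := by
  intro e he
  have he' : e ∈ Cfsg.Agent.Lib.Helper35HeC.subExps := he
  simp only [Cfsg.Agent.Lib.Helper35HeC.subExps, List.mem_cons, List.not_mem_nil, or_false] at he'
  rcases he' with h | h | h | h | h | h | h
  · exact ⟨.a, h⟩
  · exact ⟨.b, h⟩
  · exact ⟨.c, h⟩
  · exact ⟨.f, h⟩
  · exact ⟨.g, h⟩
  · exact ⟨.u, h⟩
  · exact ⟨.v, h⟩

theorem range_le : phi.range ≤ KC.H := by
  apply Pkg.range_le_of_gens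
  intro x
  rw [phi, Pkg.Ok.homW_of]
  exact okC.mem_H_of_sub (gmap_mem x)

theorem le_range : KC.H ≤ phi.range := by
  apply okC.H_le
  intro e he
  obtain ⟨x, rfl⟩ := mem_gmap e he
  exact ⟨PresentedGroup.of x, by rw [phi, Pkg.Ok.homW_of]⟩

theorem isoH : Nonempty (KP.Grp ≃* KC.H) := by
  let phi' : KP.Grp →* KC.H := phi.codRestrict KC.H (fun x => range_le ⟨x, rfl⟩)
  have hs : Function.Surjective phi' := by
    rintro ⟨y, hy⟩
    obtain ⟨x, hx⟩ := le_range hy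
    exact ⟨x, Subtype.ext hx⟩
  haveI : Finite KP.Grp := (okP.chain_base rfl).1
  exact ⟨MulEquiv.ofBijective phi' (hs.bijective_of_nat_card_le (by
    rw [card_H, Cfsg.Agent.Lib.Helper35HeZc.card_P]))⟩

theorem main : ∃ z : He, orderOf z = 2 ∧
    Nonempty (Subgroup.centralizer ({z} : Set He) ≃* Cfsg.Agent.Lib.Helper35HeZd.Γ) := by
  obtain ⟨e1⟩ := isoH
  obtain ⟨e2⟩ := Cfsg.Agent.Lib.Helper35HeZc.iso
  exact ⟨z, z_order, ⟨((MulEquiv.subgroupCongr cent_eq).trans e1.symm).trans e2⟩⟩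

end Cfsg.Agent.Lib.Helper35HeZb
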