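import Cfsg.Agent.Lib.Helper35Cnt

set_option autoImplicit false
set_option maxRecDepth 100000

/-! The centraliser of a transvection in `SL(5, 2)` has at most 21504 elements. -/

namespace Cfsg.Agent.Lib.Helper35HeZd

open Cfsg.Agent.Lib.Helper35Mat

abbrev F := ZMod 2
abbrev J := Fin 5
abbrev V := J → F
abbrev SL := Matrix.SpecialLinearGroup J F

def S0 : Matrix J J F := Matrix.transvection 0 1 1

def s0 : SL := ⟨S0, by unfold S0; exact Matrix.det_transvection_of_ne 0 1 (by decide) 1⟩

abbrev Γ := Subgroup.centralizer ({s0} : Set SL)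

def rho : Γ →* Matrix J J F where
  toFun g := g.1.1
  map_one' := rfl
  map_mul' _ _ := rfl

theorem rho_inj : Function.Injective rho := fun _ _ h => Subtype.ext (Subtype.ext h)

noncomputable def act : Γ →* Equiv.Perm V := matPerm rho

theorem act_apply (g : Γ) (v : V) : act g v = (rho g).mulVec v := rfl

theorem act_add (g : Γ) (u v : V) : act g (u + v) = act g u + act g v := by
  rw [act_apply, act_apply, act_apply]
  exact Matrix.mulVec_add _ _ _

theorem act_smul (g : Γ) (c : F) (v : V) : act g (c • v) = c • act g v := by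
  rw [act_apply, act_apply]
  exact Matrix.mulVec_smul _ _ _

theorem act_zero (g : Γ) : act g 0 = 0 := by
  rw [act_apply]
  exact Matrix.mulVec_zero _

def e0 : V := Pi.single 0 1
def e1 : V := Pi.single 1 1
def e2 : V := Pi.single 2 1
def e3 : V := Pi.single 3 1
def e4 : V := Pi.single 4 1

theorem S0_mulVec : ∀ v : V, S0.mulVec v = v + v 1 • e0 := by decide +kernel

theorem comm (g : Γ) (v : V) : act g (S0.mulVec v) = S0.mulVec (act g v) := by
  have h : g.1 * s0 = s0 * g.1 := Subgroup.mem_centralizer_singleton_iff.mp g.2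
  have h1 : rho g * S0 = S0 * rho g := congrArg Subtype.val h
  rw [act_apply, act_apply, Matrix.mulVec_mulVec, Matrix.mulVec_mulVec, h1]

theorem key (g : Γ) (v : V) : v 1 • act g e0 = (act g v) 1 • e0 := by
  have h := comm g v
  rw [S0_mulVec, S0_mulVec, act_add, act_smul] at h
  exact add_left_cancel h

theorem F_cases : ∀ x : F, x ≠ 0 → x = 1 := by decide

theorem act_e0 (g : Γ) : act g e0 = e0 := by
  have h := key g e1
  have h1 : e1 1 = 1 := by decide
  rw [h1, one_smul] at h
  have h2 : (act g e1) 1 ≠ 0 := by
    intro h3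
    rw [h3, zero_smul] at h
    have h4 : act g e0 = act g 0 := by rw [h, act_zero]
    have h5 := (act g).injective h4
    exact absurd h5 (by decide)
  rw [h, F_cases _ h2, one_smul]

theorem act_one (g : Γ) (v : V) : (act g v) 1 = v 1 := by
  have h := key g v
  rw [act_e0] at h
  have h1 := congrFun h 0
  have h2 : e0 0 = 1 := by decide
  simp only [Pi.smul_apply, smul_eq_mul, h2, mul_one] at h1
  exact h1.symm

def spanL : List V → List V
  | [] => [0]
  | y :: l => spanL l ++ (spanL l).map (fun u => y + u)

theorem fix_span (g : Γ) : ∀ (l : List V), (∀ y ∈ l, act g y = y) → ∀ u ∈ spanL l, act g u = u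
  | [], _, u, hu => by
    simp only [spanL, List.mem_singleton] at hu
    rw [hu, act_zero]
  | y :: l, h, u, hu => by
    have ih := fix_span g l (fun y hy => h y (List.mem_cons_of_mem _ hy))
    simp only [spanL, List.mem_append, List.mem_map] at hu
    rcases hu with hu | ⟨w, hw, rfl⟩
    · exact ih u hu
    · rw [act_add, h y List.mem_cons_self, ih w hw]

def cond (fs : List V) (x w : V) : Prop := w 1 = x 1 ∧ ∀ u ∈ spanL (e0 :: fs), (w = u ↔ x = u)

instance (fs : List V) (x : V) : DecidablePred (cond fs x) := fun w => by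
  unfold cond; infer_instance

def SS (fs : List V) (x : V) : Finset V := Finset.univ.filter (cond fs x)

theorem hSS : ∀ (fs : List V) (x : V) (g : Γ), (∀ y ∈ fs, act g y = y) → act g x ∈ SS fs x := by
  intro fs x g h
  simp only [SS, Finset.mem_filter, Finset.mem_univ, true_and]
  refine ⟨act_one g x, fun u hu => ?_⟩
  have hfix := fix_span g (e0 :: fs) (by
    intro y hy
    rcases List.mem_cons.mp hy with rfl | hy
    · exact act_e0 g
    · exact h y hy) u hu
  constructor
  · intro h1
    apply (act g).injective
    rw [h1, hfix]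
  · intro h1
    rw [h1, hfix]

def todo : List (V × ℕ) := [(e2, 14), (e3, 12), (e4, 8), (e1, 16)]

theorem hcards : cardsOK SS todo [] := by
  refine ⟨?_, ?_, ?_, ?_, trivial⟩ <;> decide +kernel

theorem fix_one (g : Γ) (h : ∀ y ∈ todo, act g y.1 = y.1) : g = 1 := by
  apply rho_inj
  rw [map_one]
  apply eq_one_of_fix_cols (rho g) 1 1 (by simp)
  intro j
  have hj : (fun i => (1 : Matrix J J F) i j) = e0 ∨ (fun i => (1 : Matrix J J F) i j) ∈ todo.map Prod.fst := by
    revert j
    decide +kernel
  rcases hj with hj | hj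
  · rw [hj]
    exact act_e0 g
  · obtain ⟨y, hy, hyj⟩ := List.mem_map.mp hj
    rw [← hyj]
    exact h y hy

theorem card_le : Nat.card Γ ≤ 21504 := by
  have h := (Chain.ofList act SS hSS todo [] ⊤ (by simp) hcards
    (fun g _ _ h => fix_one g h)).card_le
  rw [Subgroup.card_top] at h
  exact h.trans (by decide +kernel)

end Cfsg.Agent.Lib.Helper35HeZd
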