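import Cfsg.Agent.Lib.Helper35Iso

set_option autoImplicit false

namespace Cfsg.Agent.Lib.Helper35Mat

open Cfsg.Agent.Lib.Helper35TC

/-! ## Checking word identities in matrix groups on the standard basis -/

section
variable {F : Type*} [CommRing F]

def dotL : List F → List F → F
  | a :: r, b :: v => a * b + dotL r v
  | _, _ => 0

def mvl (R : List (List F)) (v : List F) : List F := R.map (fun r => dotL r v)

/-- apply the letters of a word one after the other; `nm` is a (provably trivial) normalisation -/
def walkV (nm : List F → List F) (tab : ℕ → List (List F)) : List ℕ → List F → List F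
  | [], x => x
  | l :: w, x => walkV nm tab w (nm (mvl (tab l) x))

theorem dotL_map {ι : Type*} (en : List ι) (a b : ι → F) :
    dotL (en.map a) (en.map b) = (en.map (fun j => a j * b j)).sum := by
  induction en with
  | nil => simp [dotL]
  | cons i l ih => simp [dotL, ih]

variable {ι : Type*} [Fintype ι] [DecidableEq ι]

/-- an explicit enumeration of a finite type -/
structure Enum (ι : Type*) where
  en : List ι
  nodup : en.Nodup
  all : ∀ i, i ∈ en

theorem Enum.sum_eq (E : Enum ι) (f : ι → F) : ∑ i, f i = (E.en.map f).sum := by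
  rw [← List.sum_toFinset f E.nodup]
  congr 1
  ext i
  simp [E.all i]

def rowsOf (en : List ι) (M : Matrix ι ι F) : List (List F) :=
  en.map (fun i => en.map (fun j => M i j))

theorem Enum.map_mulVec (E : Enum ι) (M : Matrix ι ι F) (v : ι → F) :
    E.en.map (M.mulVec v) = mvl (rowsOf E.en M) (E.en.map v) := by
  unfold mvl rowsOf
  rw [List.map_map]
  apply List.map_congr_left
  intro i _
  simp only [Function.comp, dotL_map]
  rw [← E.sum_eq]
  rfl

theorem Enum.map_inj (E : Enum ι) {X : Type*} {u v : ι → X} (h : E.en.map u = E.en.map v) :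
    u = v := by
  funext i
  exact (List.map_inj_left.mp h) i (E.all i)

theorem Enum.walk {Γ : Type*} [Group Γ] (E : Enum ι) (ρ : Γ →* Matrix ι ι F)
    (nm : List F → List F) (hnm : ∀ x, nm x = x) (val : ℕ → Γ) (tab : ℕ → List (List F)) (L : ℕ)
    (htab : ∀ l < L, rowsOf E.en (ρ (val l)) = tab l) (w : List ℕ) (hw : ∀ l ∈ w, l < L)
    (v : ι → F) :
    E.en.map ((ρ (wordVal val w)).mulVec v) = walkV nm tab w (E.en.map v) := by
  induction w generalizing v with
  | nil => simp [wordVal, walkV]
  | cons l w ih =>
    rw [wordVal, map_mul, ← Matrix.mulVec_mulVec, ih (fun x hx => hw x (List.mem_cons_of_mem _ hx)),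
      walkV, hnm, E.map_mulVec, htab l (hw l List.mem_cons_self)]

theorem Enum.eq_scalar (E : Enum ι) (A : Matrix ι ι F) (r : F)
    (h : ∀ j ∈ E.en, E.en.map (A.mulVec (Pi.single j 1)) = E.en.map (Pi.single j r)) :
    A = Matrix.scalar ι r := by
  ext i j
  have h1 := congrFun (E.map_inj (h j (E.all j))) i
  rw [Matrix.mulVec_single_one] at h1
  rw [Matrix.scalar_apply, Matrix.diagonal_apply]
  have h2 : A i j = (Pi.single j r : ι → F) i := h1
  rw [h2]
  by_cases hij : i = j
  · subst hij; simp
  · rw [if_neg hij, Pi.single_eq_of_ne hij]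

end

/-- values of letters from a list -/
theorem val_iv_of {Γ : Type*} [Group Γ] (vals : List Γ) (ivl : List ℕ)
    (hlen : ivl.length = vals.length)
    (h : ∀ l < vals.length, vals.getD (ivl.getD l l) 1 * vals.getD l 1 = 1) (l : ℕ) :
    vals.getD (ivl.getD l l) 1 = (vals.getD l 1)⁻¹ := by
  by_cases hl : l < vals.length
  · exact eq_inv_of_mul_eq_one_left (h l hl)
  · rw [List.getD_eq_default ivl _ (by omega), List.getD_eq_default vals _ (by omega), inv_one]

/-- the main criterion: a word evaluates to a scalar matrix -/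
theorem evalIn_scalar {F : Type*} [CommRing F] {ι : Type*} [Fintype ι] [DecidableEq ι]
    {Γ : Type*} [Group Γ] (E : Enum ι) (ρ : Γ →* Matrix ι ι F)
    (nm : List F → List F) (hnm : ∀ x, nm x = x) (vals : List Γ) (ivl : List ℕ)
    (hlen : ivl.length = vals.length)
    (hiv : ∀ l < vals.length, vals.getD (ivl.getD l l) 1 * vals.getD l 1 = 1)
    (tab : ℕ → List (List F))
    (htab : ∀ l < vals.length, rowsOf E.en (ρ (vals.getD l 1)) = tab l)
    {α : Type} (code : α → ℕ) (e : WExp α) (r : F)
    (hw : ∀ l ∈ e.app code (fun l => ivl.getD l l), l < vals.length)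
    (hchk : ∀ j ∈ E.en, walkV nm tab (e.app code (fun l => ivl.getD l l))
      (E.en.map (Pi.single j 1)) = E.en.map (Pi.single j r)) :
    ρ (e.evalIn (fun a => vals.getD (code a) 1)) = Matrix.scalar ι r := by
  rw [← WExp.lift_eval, eval_eq_wordVal (fun l => vals.getD l 1) code (fun l => ivl.getD l l)
    (val_iv_of vals ivl hlen hiv) _ (fun a => by simp) e]
  apply E.eq_scalar
  intro j hj
  rw [E.walk ρ nm hnm _ tab vals.length htab _ hw]
  exact hchk j hj

/-! ### strict normalisation through natural number codes -/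

section norm
variable {F : Type*} (cd : F → ℕ) (dc : ℕ → F) (B : ℕ)

def encL : List F → ℕ
  | [] => 0
  | a :: l => cd a + B * encL l

def decL : ℕ → ℕ → List F
  | 0, _ => []
  | k + 1, x => dc (x % B) :: decL k (x / B)

def nmL (x : List F) : List F := decL dc B x.length (encL cd B x)

theorem nmL_eq (h1 : ∀ a, cd a < B) (h2 : ∀ a, dc (cd a) = a) (x : List F) :
    nmL cd dc B x = x := by
  unfold nmL
  induction x with
  | nil => rfl
  | cons a l ih =>
    have hB : 0 < B := lt_of_le_of_lt (Nat.zero_le _) (h1 a)
    simp only [List.length_cons, encL, decL]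
    rw [Nat.add_mul_mod_self_left, Nat.mod_eq_of_lt (h1 a), h2,
      Nat.add_mul_div_left _ _ hB, Nat.div_eq_of_lt (h1 a), Nat.zero_add, ih]

end norm

end Cfsg.Agent.Lib.Helper35Mat
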