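import Cfsg.Agent.Lib.Helper35Mat

set_option autoImplicit false

namespace Cfsg.Agent.Lib.Helper35Pk

open Cfsg.Agent.Lib.Helper35TC

/-! ## Matrix-vector arithmetic over `ZMod p` on vectors packed into one natural number -/

/-- the `i`-th digit in base `B` -/
def dg (B S i : ℕ) : ℕ := S / B ^ i % B

theorem dg_zero (B S : ℕ) : dg B S 0 = S % B := by simp [dg]

theorem dg_succ (B S i : ℕ) : dg B S (i + 1) = dg B (S / B) i := by
  unfold dg
  rw [pow_succ', Nat.div_div_eq_div_mul]

noncomputable def accP (B : ℕ) (cols : List ℕ) : ℕ → ℕ :=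
  List.rec (motive := fun _ => ℕ → ℕ) (fun _ => nat_lit 0)
    (fun c _ ih V => Nat.add (Nat.mul (Nat.mod V B) c) (ih (Nat.div V B))) cols

theorem accP_nil (B V : ℕ) : accP B [] V = 0 := rfl

theorem accP_cons (B c : ℕ) (cs : List ℕ) (V : ℕ) :
    accP B (c :: cs) V = V % B * c + accP B cs (V / B) := rfl

theorem accP_eq (B : ℕ) (cols : List ℕ) (V : ℕ) :
    accP B cols V = ∑ j ∈ Finset.range cols.length, dg B V j * cols.getD j 0 := by
  induction cols generalizing V with
  | nil => simp [accP_nil]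
  | cons c cs ih =>
    rw [accP_cons, ih, List.length_cons, Finset.sum_range_succ']
    simp only [dg_succ, dg_zero, List.getD_cons_succ, List.getD_cons_zero]
    rw [add_comm]

noncomputable def norm (B p k : ℕ) : ℕ → ℕ :=
  Nat.rec (motive := fun _ => ℕ → ℕ) (fun _ => nat_lit 0)
    (fun _ ih S => Nat.add (Nat.mod (Nat.mod S B) p) (Nat.mul B (ih (Nat.div S B)))) k

theorem norm_zero (B p S : ℕ) : norm B p 0 S = 0 := rfl

theorem norm_succ (B p k S : ℕ) :
    norm B p (k + 1) S = S % B % p + B * norm B p k (S / B) := rfl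

theorem sum_shift (B k : ℕ) (a : ℕ → ℕ) :
    ∑ i ∈ Finset.range (k + 1), a i * B ^ i =
      a 0 + B * ∑ i ∈ Finset.range k, a (i + 1) * B ^ i := by
  rw [Finset.sum_range_succ', Finset.mul_sum, add_comm]
  simp only [pow_zero, mul_one]
  congr 1
  apply Finset.sum_congr rfl
  intros
  ring

theorem norm_eq (B p k S : ℕ) :
    norm B p k S = ∑ i ∈ Finset.range k, (dg B S i % p) * B ^ i := by
  induction k generalizing S with
  | zero => simp [norm_zero]
  | succ k ih =>
    rw [norm_succ, ih, sum_shift B k (fun i => dg B S i % p)]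
    simp only [dg_succ, dg_zero]

theorem dg_sum (B k : ℕ) (a : ℕ → ℕ) (ha : ∀ i < k, a i < B) (m : ℕ) :
    dg B (∑ i ∈ Finset.range k, a i * B ^ i) m = if m < k then a m else 0 := by
  induction k generalizing a m with
  | zero => simp [dg]
  | succ k ih =>
    have h0 := ha 0 (Nat.succ_pos k)
    have hB : 0 < B := lt_of_le_of_lt (Nat.zero_le _) h0
    rw [sum_shift]
    cases m with
    | zero =>
      rw [dg_zero, Nat.add_mul_mod_self_left, Nat.mod_eq_of_lt h0]
      simp
    | succ m =>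
      rw [dg_succ, Nat.add_mul_div_left _ _ hB, Nat.div_eq_of_lt h0, Nat.zero_add,
        ih (fun i => a (i + 1)) (fun i hi => ha (i + 1) (Nat.succ_lt_succ hi))]
      simp

/-- all of the first `n` digits are below `p`, and there are no further digits -/
def Good (B p n V : ℕ) : Prop :=
  (∀ i < n, dg B V i < p) ∧ V = ∑ i ∈ Finset.range n, dg B V i * B ^ i

theorem good_of_sum (B p n : ℕ) (hpB : p ≤ B) (a : ℕ → ℕ) (ha : ∀ i < n, a i < p) :
    Good B p n (∑ i ∈ Finset.range n, a i * B ^ i) ∧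
      ∀ i < n, dg B (∑ i ∈ Finset.range n, a i * B ^ i) i = a i := by
  have h1 : ∀ i < n, dg B (∑ i ∈ Finset.range n, a i * B ^ i) i = a i := by
    intro i hi
    rw [dg_sum B n a (fun i hi => lt_of_lt_of_le (ha i hi) hpB), if_pos hi]
  refine ⟨⟨fun i hi => by rw [h1 i hi]; exact ha i hi, ?_⟩, h1⟩
  apply Finset.sum_congr rfl
  intro i hi
  rw [h1 i (Finset.mem_range.mp hi)]

theorem good_of_norm (B p n : ℕ) (hp : 0 < p) (hpB : p ≤ B) (c : ℕ) (h : norm B p n c = c) :
    Good B p n c := by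
  have h1 := (good_of_sum B p n hpB (fun i => dg B c i % p) (fun i _ => Nat.mod_lt _ hp)).1
  rw [← norm_eq, h] at h1
  exact h1

noncomputable def mv (B p n : ℕ) (cols : List ℕ) (V : ℕ) : ℕ := norm B p n (accP B cols V)

theorem dg_accP (B p n : ℕ) (hb : n * ((p - 1) * (p - 1)) < B) (cols : List ℕ)
    (hlen : cols.length = n) (hc : ∀ j < n, Good B p n (cols.getD j 0)) (V : ℕ)
    (hV : ∀ j < n, dg B V j < p) (i : ℕ) (hi : i < n) :
    dg B (accP B cols V) i = ∑ j ∈ Finset.range n, dg B V j * dg B (cols.getD j 0) i := by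
  have e : accP B cols V =
      ∑ i ∈ Finset.range n, (∑ j ∈ Finset.range n, dg B V j * dg B (cols.getD j 0) i) * B ^ i := by
    rw [accP_eq, hlen]
    calc ∑ j ∈ Finset.range n, dg B V j * cols.getD j 0
        = ∑ j ∈ Finset.range n, dg B V j *
            (∑ i ∈ Finset.range n, dg B (cols.getD j 0) i * B ^ i) :=
          Finset.sum_congr rfl (fun j hj => by rw [← (hc j (Finset.mem_range.mp hj)).2])
      _ = ∑ j ∈ Finset.range n, ∑ i ∈ Finset.range n,
            dg B V j * dg B (cols.getD j 0) i * B ^ i := by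
          simp only [Finset.mul_sum, mul_assoc]
      _ = ∑ i ∈ Finset.range n, ∑ j ∈ Finset.range n,
            dg B V j * dg B (cols.getD j 0) i * B ^ i := Finset.sum_comm
      _ = _ := by simp only [Finset.sum_mul]
  rw [e, dg_sum, if_pos hi]
  intro i hi
  refine lt_of_le_of_lt ?_ hb
  calc ∑ j ∈ Finset.range n, dg B V j * dg B (cols.getD j 0) i
      ≤ ∑ _j ∈ Finset.range n, (p - 1) * (p - 1) := by
        apply Finset.sum_le_sum
        intro j hj
        have hj' := Finset.mem_range.mp hj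
        exact Nat.mul_le_mul (Nat.le_pred_of_lt (hV j hj')) (Nat.le_pred_of_lt ((hc j hj').1 i hi))
    _ = n * ((p - 1) * (p - 1)) := by simp

theorem mv_spec (B p n : ℕ) (hp : 0 < p) (hpB : p ≤ B) (hb : n * ((p - 1) * (p - 1)) < B)
    (cols : List ℕ) (hlen : cols.length = n) (hc : ∀ j < n, Good B p n (cols.getD j 0)) (V : ℕ)
    (hV : Good B p n V) :
    Good B p n (mv B p n cols V) ∧ ∀ i < n, dg B (mv B p n cols V) i =
      (∑ j ∈ Finset.range n, dg B V j * dg B (cols.getD j 0) i) % p := by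
  unfold mv
  rw [norm_eq]
  obtain ⟨h1, h2⟩ := good_of_sum B p n hpB (fun i => dg B (accP B cols V) i % p)
    (fun i _ => Nat.mod_lt _ hp)
  refine ⟨h1, fun i hi => ?_⟩
  rw [h2 i hi, dg_accP B p n hb cols hlen hc V hV.1 i hi]

/-! ### semantics -/

section sem
variable (B p n : ℕ)

def vec (V : ℕ) : Fin n → ZMod p := fun i => ((dg B V i : ℕ) : ZMod p)

def mat (cols : List ℕ) : Matrix (Fin n) (Fin n) (ZMod p) :=
  fun i j => ((dg B (cols.getD j 0) i : ℕ) : ZMod p)

theorem vec_mv (hp : 0 < p) (hpB : p ≤ B) (hb : n * ((p - 1) * (p - 1)) < B)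
    (cols : List ℕ) (hlen : cols.length = n) (hc : ∀ j < n, Good B p n (cols.getD j 0)) (V : ℕ)
    (hV : Good B p n V) :
    vec B p n (mv B p n cols V) = (mat B p n cols).mulVec (vec B p n V) := by
  funext i
  unfold vec
  rw [(mv_spec B p n hp hpB hb cols hlen hc V hV).2 i i.2, ZMod.natCast_mod, Nat.cast_sum,
    Finset.sum_range]
  unfold Matrix.mulVec dotProduct mat
  apply Finset.sum_congr rfl
  intro j _
  rw [Nat.cast_mul, mul_comm]

noncomputable def walk (tab : ℕ → List ℕ) : List ℕ → ℕ → ℕ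
  | [], x => x
  | l :: w, x => walk tab w (mv B p n (tab l) x)

theorem unit_good (hp : 1 < p) (hpB : p ≤ B) (j : ℕ) (hj : j < n) :
    Good B p n (B ^ j) ∧ ∀ i < n, dg B (B ^ j) i = if i = j then 1 else 0 := by
  have e : B ^ j = ∑ i ∈ Finset.range n, (if i = j then 1 else 0) * B ^ i := by
    simp only [ite_mul, one_mul, zero_mul]
    rw [Finset.sum_ite_eq' (Finset.range n) j, if_pos (Finset.mem_range.mpr hj)]
  have := good_of_sum B p n hpB (fun i => if i = j then 1 else 0)
    (fun i _ => by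
      show (if i = j then 1 else 0) < p
      split_ifs <;> omega)
  rw [← e] at this
  exact this

theorem vec_unit (hp : 1 < p) (hpB : p ≤ B) (j : Fin n) :
    vec B p n (B ^ (j : ℕ)) = Pi.single j 1 := by
  funext i
  unfold vec
  rw [(unit_good B p n hp hpB j j.2).2 i i.2]
  by_cases h : i = j
  · subst h; simp
  · rw [if_neg (fun h' => h (Fin.ext h')), Pi.single_eq_of_ne h]
    simp

/-- the complete check that a word in the matrices `tab l` is the identity -/
noncomputable def chk (tab : ℕ → List ℕ) (L : ℕ) (w : List ℕ) : Bool :=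
  w.all (fun l => Nat.blt l L) &&
    (List.range n).all (fun j => Nat.beq (walk B p n tab w (Nat.pow B j)) (Nat.pow B j))

/-- the check on the table of one matrix -/
noncomputable def chkTab (cols : List ℕ) : Bool :=
  Nat.beq cols.length n &&
    (List.range n).all (fun j => Nat.beq (norm B p n (cols.getD j 0)) (cols.getD j 0))

theorem chkTab_spec (hp : 0 < p) (hpB : p ≤ B) (cols : List ℕ) (h : chkTab B p n cols = true) :
    cols.length = n ∧ ∀ j < n, Good B p n (cols.getD j 0) := by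
  unfold chkTab at h
  rw [Bool.and_eq_true, List.all_eq_true] at h
  exact ⟨Nat.eq_of_beq_eq_true h.1, fun j hj => good_of_norm B p n hp hpB _
    (Nat.eq_of_beq_eq_true (h.2 j (List.mem_range.mpr hj)))⟩

variable {Γ : Type*} [Group Γ]

theorem walk_sem (hp : 1 < p) (hpB : p ≤ B) (hb : n * ((p - 1) * (p - 1)) < B)
    (ρ : Γ →* Matrix (Fin n) (Fin n) (ZMod p)) (val : ℕ → Γ) (tab : ℕ → List ℕ) (L : ℕ)
    (htab : ∀ l < L, chkTab B p n (tab l) = true)
    (hval : ∀ l < L, ρ (val l) = mat B p n (tab l)) (w : List ℕ) (hw : ∀ l ∈ w, l < L) (V : ℕ)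
    (hV : Good B p n V) :
    vec B p n (walk B p n tab w V) = (ρ (wordVal val w)).mulVec (vec B p n V) := by
  induction w generalizing V with
  | nil => simp [wordVal, walk]
  | cons l w ih =>
    have hl := hw l List.mem_cons_self
    obtain ⟨h1, h2⟩ := chkTab_spec B p n (by omega) hpB _ (htab l hl)
    rw [walk, ih (fun x hx => hw x (List.mem_cons_of_mem _ hx)) _
      (mv_spec B p n (by omega) hpB hb _ h1 h2 V hV).1, wordVal, map_mul,
      ← Matrix.mulVec_mulVec, vec_mv B p n (by omega) hpB hb _ h1 h2 V hV, hval l hl]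

theorem wordVal_of_chk (hp : 1 < p) (hpB : p ≤ B) (hb : n * ((p - 1) * (p - 1)) < B)
    (ρ : Γ →* Matrix (Fin n) (Fin n) (ZMod p)) (val : ℕ → Γ) (tab : ℕ → List ℕ) (L : ℕ)
    (htab : ∀ l < L, chkTab B p n (tab l) = true)
    (hval : ∀ l < L, ρ (val l) = mat B p n (tab l)) (w : List ℕ)
    (h : chk B p n tab L w = true) : ρ (wordVal val w) = 1 := by
  unfold chk at h
  rw [Bool.and_eq_true, List.all_eq_true, List.all_eq_true] at h
  obtain ⟨h1, h2⟩ := h
  have hw : ∀ l ∈ w, l < L := fun l hl => Nat.le_of_ble_eq_true (h1 l hl)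
  ext i j
  have h3 : walk B p n tab w (B ^ (j : ℕ)) = B ^ (j : ℕ) :=
    Nat.eq_of_beq_eq_true (h2 j (List.mem_range.mpr j.2))
  have h4 := walk_sem B p n hp hpB hb ρ val tab L htab hval w hw (B ^ (j : ℕ))
    (unit_good B p n hp hpB j j.2).1
  rw [h3, vec_unit B p n hp hpB j, Matrix.mulVec_single_one] at h4
  have h5 := congrFun h4 i
  rw [Matrix.one_apply]
  have h6 : ρ (wordVal val w) i j = (Pi.single j 1 : Fin n → ZMod p) i := h5.symm
  rw [h6]
  by_cases hij : i = j
  · subst hij; simp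
  · rw [if_neg hij, Pi.single_eq_of_ne hij]

end sem

/-- a product of two tabulated matrices is the identity -/
theorem mat_mul_eq_one (B p n : ℕ) (hp : 1 < p) (hpB : p ≤ B) (hb : n * ((p - 1) * (p - 1)) < B)
    (c1 c2 : List ℕ) (h1 : chkTab B p n c1 = true) (h2 : chkTab B p n c2 = true)
    (h : (List.range n).all (fun j =>
      Nat.beq (mv B p n c1 (mv B p n c2 (Nat.pow B j))) (Nat.pow B j)) = true) :
    mat B p n c1 * mat B p n c2 = 1 := by
  rw [List.all_eq_true] at h
  obtain ⟨a1, a2⟩ := chkTab_spec B p n (by omega) hpB _ h1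
  obtain ⟨b1, b2⟩ := chkTab_spec B p n (by omega) hpB _ h2
  ext i j
  have h3 : mv B p n c1 (mv B p n c2 (B ^ (j : ℕ))) = B ^ (j : ℕ) :=
    Nat.eq_of_beq_eq_true (h j (List.mem_range.mpr j.2))
  have g0 := (unit_good B p n hp hpB j j.2).1
  have g1 := (mv_spec B p n (by omega) hpB hb _ b1 b2 _ g0).1
  have h4 := vec_mv B p n (by omega) hpB hb _ a1 a2 _ g1
  rw [h3, vec_mv B p n (by omega) hpB hb _ b1 b2 _ g0, vec_unit B p n hp hpB j,
    Matrix.mulVec_mulVec, Matrix.mulVec_single_one] at h4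
  have h5 := congrFun h4 i
  rw [Matrix.one_apply]
  have h6 : (mat B p n c1 * mat B p n c2) i j = (Pi.single j 1 : Fin n → ZMod p) i := h5.symm
  rw [h6]
  by_cases hij : i = j
  · subst hij; simp
  · rw [if_neg hij, Pi.single_eq_of_ne hij]

/-- evaluation of a word expression as a word value -/
theorem evalIn_eq_wordVal {Γ : Type*} [Group Γ] (val : ℕ → Γ) (iv : ℕ → ℕ)
    (hiv : ∀ l, val (iv l) = (val l)⁻¹) {α : Type} (code : α → ℕ) (e : WExp α) :
    e.evalIn (fun a => val (code a)) = wordVal val (e.app code iv) := by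
  rw [← WExp.lift_eval, eval_eq_wordVal val code iv hiv _ (fun a => by simp) e]

end Cfsg.Agent.Lib.Helper35Pk
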