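import Cfsg.Agent.Lib.Helper35Pk

set_option autoImplicit false

namespace Cfsg.Agent.Lib.Helper35Pk

open Cfsg.Agent.Lib.Helper35TC

theorem good_ext (B p n : ℕ) {V V' : ℕ} (h1 : Good B p n V) (h2 : Good B p n V')
    (h : vec B p n V = vec B p n V') : V = V' := by
  rw [h1.2, h2.2]
  apply Finset.sum_congr rfl
  intro i hi
  have hi' := Finset.mem_range.mp hi
  have h3 : ((dg B V i : ℕ) : ZMod p) = ((dg B V' i : ℕ) : ZMod p) := congrFun h ⟨i, hi'⟩
  rw [ZMod.natCast_eq_natCast_iff', Nat.mod_eq_of_lt (h1.1 i hi'),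
    Nat.mod_eq_of_lt (h2.1 i hi')] at h3
  rw [h3]

theorem walk_good (B p n : ℕ) (hp : 1 < p) (hpB : p ≤ B) (hb : n * ((p - 1) * (p - 1)) < B)
    (tab : ℕ → List ℕ) (L : ℕ) (htab : ∀ l < L, chkTab B p n (tab l) = true) (w : List ℕ)
    (hw : ∀ l ∈ w, l < L) (V : ℕ) (hV : Good B p n V) : Good B p n (walk B p n tab w V) := by
  induction w generalizing V with
  | nil => exact hV
  | cons l w ih =>
    have hl := hw l List.mem_cons_self
    obtain ⟨h1, h2⟩ := chkTab_spec B p n (by omega) hpB _ (htab l hl)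
    rw [walk]
    exact ih (fun x hx => hw x (List.mem_cons_of_mem _ hx)) _
      (mv_spec B p n (by omega) hpB hb _ h1 h2 V hV).1

theorem ne_one_of_walk {Γ : Type*} [Group Γ] (B p n : ℕ) (hp : 1 < p) (hpB : p ≤ B)
    (hb : n * ((p - 1) * (p - 1)) < B)
    (ρ : Γ →* Matrix (Fin n) (Fin n) (ZMod p)) (val : ℕ → Γ) (tab : ℕ → List ℕ) (L : ℕ)
    (htab : ∀ l < L, chkTab B p n (tab l) = true)
    (hval : ∀ l < L, ρ (val l) = mat B p n (tab l)) (w : List ℕ) (hw : ∀ l ∈ w, l < L)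
    (j : ℕ) (hj : j < n) (h : walk B p n tab w (B ^ j) ≠ B ^ j) : wordVal val w ≠ 1 := by
  intro h1
  apply h
  have g0 := (unit_good B p n hp hpB j hj).1
  apply good_ext B p n (walk_good B p n hp hpB hb tab L htab w hw _ g0) g0
  rw [walk_sem B p n hp hpB hb ρ val tab L htab hval w hw _ g0, h1, map_one, Matrix.one_mulVec]

end Cfsg.Agent.Lib.Helper35Pk
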