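import Mathlib

set_option autoImplicit false

/-! Project 43, wave 4, piece `center1`: the centre of `SL_n(F)` is the normal closure of one element. -/

namespace Cfsg.Agent.Lib.Helper36BPCenter1

open Matrix

theorem normalClosure_of_cyclic_center {G : Type*} [Group G] [IsCyclic (Subgroup.center G)] :
    ∃ c : G, Subgroup.center G = Subgroup.normalClosure {c} := by
  obtain ⟨⟨c, hc⟩, hgen⟩ := IsCyclic.exists_generator (α := Subgroup.center G)
  refine ⟨c, le_antisymm ?_ ?_⟩
  · intro z hz
    obtain ⟨k, hk⟩ := Subgroup.mem_zpowers_iff.1 (hgen ⟨z, hz⟩)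
    have hk' : c ^ k = z := by
      have := congrArg Subtype.val hk
      simpa using this
    rw [← hk']
    exact Subgroup.zpow_mem _ (Subgroup.subset_normalClosure (Set.mem_singleton c)) k
  · apply Subgroup.normalClosure_le_normal
    intro x hx
    rw [Set.mem_singleton_iff] at hx
    rw [hx]
    exact hc

theorem center_eq_normalClosure (n : ℕ) (F : Type*) [Field F] [Finite F] :
    ∃ c : SpecialLinearGroup (Fin n) F,
      Subgroup.center (SpecialLinearGroup (Fin n) F) = Subgroup.normalClosure {c} := by
  rcases Nat.eq_zero_or_pos n with rfl | hn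
  · refine ⟨1, ?_⟩
    have : Subsingleton (SpecialLinearGroup (Fin 0) F) := ⟨fun a b => by
      apply Subtype.ext
      ext i
      exact i.elim0⟩
    exact Subsingleton.elim _ _
  · haveI : NeZero n := ⟨hn.ne'⟩
    haveI : IsCyclic (Subgroup.center (SpecialLinearGroup (Fin n) F)) := by
      have e := Matrix.SpecialLinearGroup.center_equiv_rootsOfUnity (n := Fin n) (R := F)
      haveI : NeZero (max (Fintype.card (Fin n)) 1) := ⟨by
        have : 1 ≤ max (Fintype.card (Fin n)) 1 := le_max_right _ _
        omega⟩
      exact isCyclic_of_surjective e.symm e.symm.surjective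
    exact normalClosure_of_cyclic_center

end Cfsg.Agent.Lib.Helper36BPCenter1
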