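import Cfsg.Agent.Lib.Helper30BPHcomm

set_option autoImplicit false

/-! Project 43, wave 2, piece `hdec`. -/

namespace Cfsg.Agent.Lib.Helper36BPHdec

open Matrix Cfsg.Agent.Lib.Helper43St Cfsg.Agent.Lib.Helper43P3 Cfsg.Agent.Lib.Helper30BPHrel
  Cfsg.Agent.Lib.Helper30BPHcomm

variable {n : ℕ} {F : Type*} [Field F] {P : Type*} [Group P] (S : StSys n F P)

theorem hh_comm_Hk (hn : 3 ≤ n) (i j : Fin n) (hij : i ≠ j) (a : F) (ha : a ≠ 0) (k : ℕ) (η : P)
    (hη : η ∈ S.Hk k) : S.hh i j a * η = η * S.hh i j a := by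
  have hle : S.Hk k ≤ Subgroup.centralizer {S.hh i j a} := by
    unfold StSys.Hk
    rw [Subgroup.closure_le]
    rintro _ ⟨i', j', b, hij', -, hb, rfl⟩
    rw [SetLike.mem_coe, Subgroup.mem_centralizer_iff]
    intro g hg
    rw [Set.mem_singleton_iff] at hg
    subst hg
    have hne : i' ≠ j' := by
      intro h
      rw [h] at hij'
      omega
    exact (hh_comm S hn i j i' j' hij hne a b ha hb).eq
  exact (Subgroup.mem_centralizer_iff.1 (hle hη)) _ rfl

theorem h_dec (hn : 3 ≤ n) (i j : Fin n) (hij : j.val = i.val + 1) (η : P) (hη : η ∈ S.Hk j.val) :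
    ∃ η' ∈ S.Hk i.val, ∃ a, a ≠ 0 ∧ η = η' * S.hh i j a := by
  have hne : i ≠ j := by
    intro h
    rw [h] at hij
    omega
  unfold StSys.Hk at hη
  induction hη using Subgroup.closure_induction with
  | mem x hx =>
    obtain ⟨i', j', a, hij', hj', ha, rfl⟩ := hx
    by_cases hjj : j' = j
    · subst hjj
      have hii : i' = i := Fin.ext (by omega)
      subst hii
      exact ⟨1, (S.Hk _).one_mem, a, ha, by rw [one_mul]⟩
    · have hlt : j'.val ≤ i.val := by
        have : j'.val ≠ j.val := fun h => hjj (Fin.ext h)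
        omega
      exact ⟨S.hh i' j' a, Subgroup.subset_closure ⟨i', j', a, hij', hlt, ha, rfl⟩, 1, one_ne_zero,
        by rw [hh_one, mul_one]⟩
  | one => exact ⟨1, (S.Hk _).one_mem, 1, one_ne_zero, by rw [hh_one, mul_one]⟩
  | mul x y _ _ hx hy =>
    obtain ⟨x', hx', a, ha, rfl⟩ := hx
    obtain ⟨y', hy', b, hb, rfl⟩ := hy
    refine ⟨x' * y', (S.Hk _).mul_mem hx' hy', a * b, mul_ne_zero ha hb, ?_⟩
    rw [hh_mul S hn i j hne a b ha hb, mul_assoc x', ← mul_assoc (S.hh i j a),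
      hh_comm_Hk S hn i j hne a ha _ y' hy']
    simp only [mul_assoc]
  | inv x _ hx =>
    obtain ⟨x', hx', a, ha, rfl⟩ := hx
    refine ⟨x'⁻¹, (S.Hk _).inv_mem hx', a⁻¹, inv_ne_zero ha, ?_⟩
    rw [_root_.mul_inv_rev, hh_inv S hn i j hne a ha,
      hh_comm_Hk S hn i j hne a⁻¹ (inv_ne_zero ha) _ x'⁻¹ ((S.Hk _).inv_mem hx')]

end Cfsg.Agent.Lib.Helper36BPHdec
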