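import Cfsg.Agent.Lib.Helper43StDefs

set_option autoImplicit false

/-! Project 43, wave 2, piece `hfix`. -/

namespace Cfsg.Agent.Lib.Helper36BPHfix

open Matrix Cfsg.Agent.Lib.Helper43St Cfsg.Agent.Lib.Helper43P3

variable {n : ℕ} {F : Type*} [Field F] {P : Type*} [Group P] (S : StSys n F P)

theorem tv_mulVec (i j : Fin n) (h : i ≠ j) (t : F) (v : Fin n → F) :
    (tv i j t : SpecialLinearGroup (Fin n) F).1 *ᵥ v = v + Pi.single i (t * v j) := by
  have e : (tv i j t : SpecialLinearGroup (Fin n) F).1 = 1 + Matrix.single i j t := tv_val i j h t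
  rw [e, Matrix.add_mulVec, Matrix.one_mulVec]
  congr 1
  ext k
  simp only [Matrix.mulVec, dotProduct, Matrix.single_apply, Pi.single_apply]
  by_cases hk : k = i
  · subst hk
    simp
  · have : ¬ i = k := fun h => hk h.symm
    simp [hk, this]

/-- the stabiliser of a vector -/
def fixv (v : Fin n → F) : Subgroup (SpecialLinearGroup (Fin n) F) where
  carrier := {g | g.1 *ᵥ v = v}
  one_mem' := by simp
  mul_mem' := by
    intro a b ha hb
    have ha' : a.1 *ᵥ v = v := ha
    have hb' : b.1 *ᵥ v = v := hb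
    show (a * b).1 *ᵥ v = v
    rw [show (a * b).1 = a.1 * b.1 from rfl, ← Matrix.mulVec_mulVec, hb', ha']
  inv_mem' := by
    intro a ha
    have ha' : a.1 *ᵥ v = v := ha
    show (a⁻¹).1 *ᵥ v = v
    have h1 : (a⁻¹).1 * a.1 = 1 := by
      have := congrArg Subtype.val (inv_mul_cancel a)
      exact this
    calc (a⁻¹).1 *ᵥ v = (a⁻¹).1 *ᵥ (a.1 *ᵥ v) := by rw [ha']
      _ = v := by rw [Matrix.mulVec_mulVec, h1, Matrix.one_mulVec]

theorem tv_mem_fixv (i j k : Fin n) (hij : i ≠ j) (hjk : j ≠ k) (t : F) :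
    (tv i j t : SpecialLinearGroup (Fin n) F) ∈ fixv (Pi.single k (1 : F)) := by
  show (tv i j t : SpecialLinearGroup (Fin n) F).1 *ᵥ Pi.single k 1 = Pi.single k 1
  rw [tv_mulVec i j hij, Pi.single_eq_of_ne hjk]
  simp

theorem h_fix (j : Fin n) (k : ℕ) (hk : k < j.val) (η : P) (hη : η ∈ S.Hk k) :
    (S.π η).1 *ᵥ Pi.single j 1 = Pi.single j 1 := by
  have hle : S.Hk k ≤ (fixv (Pi.single j (1 : F))).comap S.π := by
    unfold StSys.Hk
    rw [Subgroup.closure_le]
    rintro _ ⟨i', j', a, hij', hj', ha, rfl⟩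
    have hne : i' ≠ j' := by
      intro h
      rw [h] at hij'
      omega
    have h1 : i' ≠ j := by
      intro h
      rw [← h] at hk
      omega
    have h2 : j' ≠ j := by
      intro h
      rw [← h] at hk
      omega
    have hw : ∀ b : F, S.π (S.w i' j' b) ∈ fixv (Pi.single j (1 : F)) := by
      intro b
      unfold StSys.w
      rw [map_mul, map_mul, S.hπ i' j' _ hne, S.hπ j' i' _ hne.symm]
      exact mul_mem (mul_mem (tv_mem_fixv i' j' j hne h2 _) (tv_mem_fixv j' i' j hne.symm h1 _))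
        (tv_mem_fixv i' j' j hne h2 _)
    rw [SetLike.mem_coe, Subgroup.mem_comap]
    unfold StSys.hh
    rw [map_mul, map_inv]
    exact mul_mem (hw a) (inv_mem (hw 1))
  exact hle hη

theorem h_val (i j : Fin n) (hij : i ≠ j) (a : F) (ha : a ≠ 0) :
    (S.π (S.hh i j a)).1 *ᵥ Pi.single j 1 = a⁻¹ • Pi.single j 1 := by
  unfold StSys.hh StSys.w
  simp only [map_mul, map_inv, S.hπ i j _ hij, S.hπ j i _ hij.symm, _root_.mul_inv_rev, tv_inv]
  simp only [show ∀ x y : SpecialLinearGroup (Fin n) F, (x * y).1 = x.1 * y.1 from fun _ _ => rfl,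
    ← Matrix.mulVec_mulVec, tv_mulVec i j hij, tv_mulVec j i hij.symm]
  ext k
  by_cases hki : k = i
  · subst hki
    simp [Pi.single_apply, hij, hij.symm, ha]
  · by_cases hkj : k = j
    · subst hkj
      simp [Pi.single_apply, hij, hij.symm, ha]
    · simp [Pi.single_apply, hij, hij.symm, ha, hki, hkj]

end Cfsg.Agent.Lib.Helper36BPHfix
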