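import Cfsg.Agent.Lib.Helper36BPHsimple
import Cfsg.Agent.Lib.Helper36BPHdec
import Cfsg.Agent.Lib.Helper36BPHfix

set_option autoImplicit false

/-! Project 43, wave 2, piece `hinj`. -/

namespace Cfsg.Agent.Lib.Helper36BPHinj

open Matrix Cfsg.Agent.Lib.Helper43St Cfsg.Agent.Lib.Helper43P3 Cfsg.Agent.Lib.Helper30BPHrel
  Cfsg.Agent.Lib.Helper36BPHsimple Cfsg.Agent.Lib.Helper36BPHdec Cfsg.Agent.Lib.Helper36BPHfix

variable {n : ℕ} {F : Type*} [Field F] {P : Type*} [Group P] (S : StSys n F P)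

theorem hk_inj (hn : 3 ≤ n) (k : ℕ) : ∀ η ∈ S.Hk k, S.π η = 1 → η = 1 := by
  induction k with
  | zero =>
    intro η hη _
    have : S.Hk 0 = ⊥ := by
      unfold StSys.Hk
      rw [Subgroup.closure_eq_bot_iff]
      rintro _ ⟨i, j, a, hij, hj, -, -⟩
      omega
    rw [this, Subgroup.mem_bot] at hη
    exact hη
  | succ k ih =>
    intro η hη h1
    by_cases hk : k + 1 < n
    · set j : Fin n := ⟨k + 1, hk⟩ with hj
      set i : Fin n := ⟨k, by omega⟩ with hi
      have hne : i ≠ j := by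
        intro h
        have := congrArg Fin.val h
        simp [hi, hj] at this
      obtain ⟨η', hη', a, ha, rfl⟩ := h_dec S hn i j rfl η hη
      have hη'' : η' ∈ S.Hk k := hη'
      have h2 : (S.π (η' * S.hh i j a)).1 *ᵥ Pi.single j 1 = a⁻¹ • Pi.single j (1 : F) := by
        rw [map_mul, show (S.π η' * S.π (S.hh i j a)).1 = (S.π η').1 * (S.π (S.hh i j a)).1 from rfl,
          ← Matrix.mulVec_mulVec, h_val S i j hne a ha, Matrix.mulVec_smul,
          h_fix S j k (by simp [hj]) η' hη'']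
      rw [h1] at h2
      have h3 := congrFun h2 j
      have ha1 : a = 1 := by
        simpa using h3
      rw [ha1, hh_one, mul_one] at h1 ⊢
      exact ih η' hη'' h1
    · refine ih η ?_ h1
      have hle : S.Hk (k + 1) ≤ S.Hk k := by
        unfold StSys.Hk
        apply Subgroup.closure_mono
        rintro _ ⟨i, j, a, hij, hj, ha, rfl⟩
        exact ⟨i, j, a, hij, by have := j.isLt; omega, ha, rfl⟩
      exact hle hη

theorem h_inj (hn : 3 ≤ n) (η : P) (hη : η ∈ S.H) (h : S.π η = 1) : η = 1 := by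
  rw [h_simple S hn] at hη
  exact hk_inj S hn n η hη h

end Cfsg.Agent.Lib.Helper36BPHinj
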