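import Cfsg.Agent.Lib.Helper30BPHrel

set_option autoImplicit false

/-! Project 43, wave 2, piece `hsimple`. -/

namespace Cfsg.Agent.Lib.Helper36BPHsimple

open Matrix Cfsg.Agent.Lib.Helper43St Cfsg.Agent.Lib.Helper43P3 Cfsg.Agent.Lib.Helper30BPHrel

variable {n : ℕ} {F : Type*} [Field F] {P : Type*} [Group P] (S : StSys n F P)

theorem hh_mem_Hk_of_lt (d : ℕ) : ∀ (i j : Fin n), j.val = i.val + 1 + d → ∀ a : F, a ≠ 0 →
    S.hh i j a ∈ S.Hk n := by
  induction d with
  | zero =>
    intro i j hij a ha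
    exact Subgroup.subset_closure ⟨i, j, a, by omega, j.isLt.le, ha, rfl⟩
  | succ d ih =>
    intro i j hij a ha
    have hm : i.val + 1 < n := by have := j.isLt; omega
    set m : Fin n := ⟨i.val + 1, hm⟩ with hmdef
    have him : i ≠ m := by
      intro h
      have := congrArg Fin.val h
      simp [hmdef] at this
    have hij' : i ≠ j := by
      intro h
      rw [h] at hij
      omega
    have hmj : m ≠ j := by
      intro h
      have := congrArg Fin.val h
      simp [hmdef] at this
      omega
    rw [hh_chain S i m j him hij' hmj a ha]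
    refine (S.Hk n).mul_mem ?_ (ih m j (by simp [hmdef]; omega) a ha)
    exact Subgroup.subset_closure ⟨i, m, a, rfl, hm.le, ha, rfl⟩

theorem h_simple (hn : 3 ≤ n) : S.H = S.Hk n := by
  apply le_antisymm
  · unfold StSys.H
    rw [Subgroup.closure_le]
    rintro _ ⟨i, j, a, hij, ha, rfl⟩
    rcases lt_or_gt_of_ne hij with h | h
    · exact hh_mem_Hk_of_lt S (j.val - i.val - 1) i j (by rw [Fin.lt_def] at h; omega) a ha
    · rw [hh_symm S hn j i hij.symm a ha]
      exact (S.Hk n).inv_mem
        (hh_mem_Hk_of_lt S (i.val - j.val - 1) j i (by rw [Fin.lt_def] at h; omega) a ha)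
  · unfold StSys.Hk
    rw [Subgroup.closure_le]
    rintro _ ⟨i, j, a, hij, -, ha, rfl⟩
    refine Subgroup.subset_closure ⟨i, j, a, ?_, ha, rfl⟩
    intro h
    rw [h] at hij
    omega

end Cfsg.Agent.Lib.Helper36BPHsimple
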