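import Cfsg.Agent.Lib.Helper43PresS

set_option autoImplicit false

/-! Project 43, wave 4, piece `sl2gen`: `SL_2(F)`, `|F| ≥ 4`, is generated by two elements. -/

namespace Cfsg.Agent.Lib.Helper36BPSl2gen

open Matrix Cfsg.Agent.Lib.Helper43Pres

theorem sl2_two_gen (F : Type*) [Field F] [Fintype F] (hF : 4 ≤ Fintype.card F) :
    ∃ a b : SpecialLinearGroup (Fin 2) F,
      Subgroup.closure ({a, b} : Set (SpecialLinearGroup (Fin 2) F)) = ⊤ := by
  obtain ⟨p, hp⟩ := CharP.exists F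
  haveI : Fact p.Prime := ⟨CharP.char_is_prime F p⟩
  letI : Algebra (ZMod p) F := ZMod.algebra F p
  obtain ⟨ζ, hζ, -, hord⟩ := exists_zeta (F := F)
  have ha := adjoin_zeta_sq p hζ hord
  set c : Fˣ := Units.mk0 ζ hζ with hc
  have hcζ : (c : F) = ζ := rfl
  refine ⟨Hm c, Um 1 * Tm, ?_⟩
  set K := Subgroup.closure ({Hm c, Um 1 * Tm} : Set (SpecialLinearGroup (Fin 2) F)) with hK
  have hh : Hm c ∈ K := Subgroup.subset_closure (by simp)
  have hb : Um (1 : F) * Tm ∈ K := Subgroup.subset_closure (by simp)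
  have hx0 : ζ ^ 2 - 1 ≠ 0 := by
    intro h
    have h1 : ζ ^ 2 = 1 := sub_eq_zero.mp h
    have := Nat.le_of_dvd (by omega) (orderOf_dvd_of_pow_eq_one h1)
    omega
  have hUinv : ∀ x : F, (Um x)⁻¹ = Um (-x) := by
    intro x
    apply inv_eq_of_mul_eq_one_right
    rw [← Um_add, add_neg_cancel]
    apply Subtype.ext
    show (!![1, 0; 0, 1] : Matrix (Fin 2) (Fin 2) F) = 1
    simp [Matrix.one_fin_two]
  have hu0 : Um (ζ ^ 2 - 1) ∈ K := by
    have h1 : Hm c * ((Um (1 : F) * Tm) * Hm c * (Um (1 : F) * Tm)⁻¹) ∈ K :=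
      K.mul_mem hh (K.mul_mem (K.mul_mem hb hh) (K.inv_mem hb))
    have e : Hm c * ((Um (1 : F) * Tm) * Hm c * (Um (1 : F) * Tm)⁻¹) = Um (ζ ^ 2 - 1) := by
      have e1 : (Um (1 : F) * Tm) * Hm c * (Um (1 : F) * Tm)⁻¹
          = Um 1 * (Tm * Hm c * Tm⁻¹) * (Um 1)⁻¹ := by group
      rw [e1, Tm_conj]
      have e2 : Hm c * (Um (1 : F) * (Hm c)⁻¹ * (Um 1)⁻¹) = (Hm c * Um 1 * (Hm c)⁻¹) * (Um 1)⁻¹ := by
        group
      rw [e2, Hm_conj, hUinv, ← Um_add, hcζ, mul_one, sub_eq_add_neg]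
    rwa [e] at h1
  have hu : Um (1 : F) ∈ K := by
    obtain ⟨L, hL⟩ := exists_evL p ha (ζ ^ 2 - 1)⁻¹
    have := W_phi (φ := (Um : F → _)) Um_add (Hm_conj c) (ζ ^ 2 - 1) L
    rw [hcζ, hL, inv_mul_cancel₀ hx0] at this
    rw [← this]
    exact W_mem K hu0 hh L
  have ht : (Tm : SpecialLinearGroup (Fin 2) F) ∈ K := by
    have := K.mul_mem (K.inv_mem hu) hb
    simpa using this
  rw [eq_top_iff, ← sl_gen p c (by rw [hcζ]; exact ha), Subgroup.closure_le]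
  rintro g (rfl | rfl | rfl)
  · exact hu
  · exact hh
  · exact ht

end Cfsg.Agent.Lib.Helper36BPSl2gen
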