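import Cfsg.Agent.Lib.Helper36BPTri3

set_option autoImplicit false

/-! Project 43, wave 2, piece `wh`. -/

namespace Cfsg.Agent.Lib.Helper36BPWh

open Matrix Cfsg.Agent.Lib.Helper43St Cfsg.Agent.Lib.Helper43P3 Cfsg.Agent.Lib.Helper36BPTri3

variable {n : ℕ} {F : Type*} [Field F] {P : Type*} [Group P] (S : StSys n F P)

/-- `w` in `SL_3`. -/
def W3 (a b : Fin 3) (t : F) : SpecialLinearGroup (Fin 3) F := tv a b t * tv b a (-t⁻¹) * tv a b t

/-- `h` in `SL_3`. -/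
def H3 (a b : Fin 3) (t : F) : SpecialLinearGroup (Fin 3) F := W3 a b t * (W3 a b 1)⁻¹

theorem id1 (a : F) (ha : a ≠ 0) :
    W3 0 1 (1 : F) * H3 0 1 a * (W3 0 1 (1 : F))⁻¹ = H3 1 0 a := by
  unfold H3 W3
  simp only [_root_.mul_inv_rev, tv_inv]
  ext i j
  fin_cases i <;> fin_cases j <;>
    simp [Matrix.mul_apply, Fin.sum_univ_three, tv_apply, ha]

theorem id2 (a : F) (ha : a ≠ 0) :
    W3 0 1 (1 : F) * H3 1 0 a * (W3 0 1 (1 : F))⁻¹ = H3 0 1 a := by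
  unfold H3 W3
  simp only [_root_.mul_inv_rev, tv_inv]
  ext i j
  fin_cases i <;> fin_cases j <;>
    simp [Matrix.mul_apply, Fin.sum_univ_three, tv_apply, ha]

theorem id3 (a : F) (ha : a ≠ 0) :
    W3 0 1 (1 : F) * H3 0 2 a * (W3 0 1 (1 : F))⁻¹ = H3 1 2 a := by
  unfold H3 W3
  simp only [_root_.mul_inv_rev, tv_inv]
  ext i j
  fin_cases i <;> fin_cases j <;>
    simp [Matrix.mul_apply, Fin.sum_univ_three, tv_apply, ha]

theorem id4 (a : F) (ha : a ≠ 0) :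
    W3 0 1 (1 : F) * H3 1 2 a * (W3 0 1 (1 : F))⁻¹ = H3 0 2 a := by
  unfold H3 W3
  simp only [_root_.mul_inv_rev, tv_inv]
  ext i j
  fin_cases i <;> fin_cases j <;>
    simp [Matrix.mul_apply, Fin.sum_univ_three, tv_apply, ha]

theorem id5 (a : F) (ha : a ≠ 0) :
    W3 0 1 (1 : F) * H3 2 0 a * (W3 0 1 (1 : F))⁻¹ = H3 2 1 a := by
  unfold H3 W3
  simp only [_root_.mul_inv_rev, tv_inv]
  ext i j
  fin_cases i <;> fin_cases j <;>
    simp [Matrix.mul_apply, Fin.sum_univ_three, tv_apply, ha]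

theorem id6 (a : F) (ha : a ≠ 0) :
    W3 0 1 (1 : F) * H3 2 1 a * (W3 0 1 (1 : F))⁻¹ = H3 2 0 a := by
  unfold H3 W3
  simp only [_root_.mul_inv_rev, tv_inv]
  ext i j
  fin_cases i <;> fin_cases j <;>
    simp [Matrix.mul_apply, Fin.sum_univ_three, tv_apply, ha]

theorem id_sq : W3 0 1 (1 : F) * W3 0 1 (1 : F) = H3 0 1 (-1) := by
  unfold H3 W3
  simp only [_root_.mul_inv_rev, tv_inv]
  ext i j
  fin_cases i <;> fin_cases j <;>
    simp [Matrix.mul_apply, Fin.sum_univ_three, tv_apply]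

theorem id_xw (a : F) (ha : a ≠ 0) :
    tv 0 1 a * W3 0 1 (1 : F) = tv 1 0 a⁻¹ * H3 0 1 (-a) * tv 0 1 (-a⁻¹) := by
  unfold H3 W3
  simp only [_root_.mul_inv_rev, tv_inv]
  ext i j
  fin_cases i <;> fin_cases j <;>
    simp [Matrix.mul_apply, Fin.sum_univ_three, tv_apply, ha]

theorem id_braid : (W3 0 1 (1 : F) * W3 1 2 (1 : F)) ^ 3 = 1 := by
  unfold W3
  simp only [pow_succ, pow_zero, one_mul]
  ext i j
  fin_cases i <;> fin_cases j <;>
    simp [Matrix.mul_apply, Fin.sum_univ_three, tv_apply]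

theorem f_W3 (f : SpecialLinearGroup (Fin 3) F →* P) (a b : Fin 3) (p q : Fin n)
    (h1 : ∀ t, f (tv a b t) = S.x p q t) (h2 : ∀ t, f (tv b a t) = S.x q p t) (t : F) :
    f (W3 a b t) = S.w p q t := by
  unfold W3 StSys.w
  rw [map_mul, map_mul, h1, h2]

theorem f_H3 (f : SpecialLinearGroup (Fin 3) F →* P) (a b : Fin 3) (p q : Fin n)
    (h1 : ∀ t, f (tv a b t) = S.x p q t) (h2 : ∀ t, f (tv b a t) = S.x q p t) (t : F) :
    f (H3 a b t) = S.hh p q t := by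
  unfold H3 StSys.hh
  rw [map_mul, map_inv, f_W3 S f a b p q h1 h2, f_W3 S f a b p q h1 h2]

theorem w_comm' (i j k l : Fin n) (hij : i ≠ j) (hkl : k ≠ l) (hik : i ≠ k) (hil : i ≠ l)
    (hjk : j ≠ k) (hjl : j ≠ l) (a b : F) : Commute (S.w i j a) (S.w k l b) := by
  unfold StSys.w
  have h1 : ∀ s t, Commute (S.x i j s) (S.x k l t) := S.dis i j k l hij hkl hik hil hjk hjl
  have h2 : ∀ s t, Commute (S.x i j s) (S.x l k t) := S.dis i j l k hij hkl.symm hil hik hjl hjk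
  have h3 : ∀ s t, Commute (S.x j i s) (S.x k l t) := S.dis j i k l hij.symm hkl hjk hjl hik hil
  have h4 : ∀ s t, Commute (S.x j i s) (S.x l k t) := S.dis j i l k hij.symm hkl.symm hjl hjk hil hik
  exact Commute.mul_left (Commute.mul_left
    (Commute.mul_right (Commute.mul_right (h1 _ _) (h2 _ _)) (h1 _ _))
    (Commute.mul_right (Commute.mul_right (h3 _ _) (h4 _ _)) (h3 _ _)))
    (Commute.mul_right (Commute.mul_right (h1 _ _) (h2 _ _)) (h1 _ _))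

theorem w_hh (hn : 3 ≤ n) (i j : Fin n) (hij : i ≠ j) (k l : Fin n) (hkl : k ≠ l) (a : F)
    (ha : a ≠ 0) :
    S.w i j 1 * S.hh k l a * (S.w i j 1)⁻¹ = S.hh (Equiv.swap i j k) (Equiv.swap i j l) a := by
  by_cases hki : k = i
  · subst hki
    rw [Equiv.swap_apply_left]
    by_cases hlj : l = j
    · subst hlj
      rw [Equiv.swap_apply_right]
      obtain ⟨m, hkm, hlm⟩ := exists_third hn k l
      obtain ⟨f, h01, h10, h02, h20, h12, h21⟩ := tri3 S k l m hij hkm hlm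
      rw [← f_W3 S f 0 1 k l h01 h10, ← f_H3 S f 0 1 k l h01 h10, ← f_H3 S f 1 0 l k h10 h01,
        ← map_inv, ← map_mul, ← map_mul, id1 a ha]
    · rw [Equiv.swap_apply_of_ne_of_ne hkl.symm hlj]
      obtain ⟨f, h01, h10, h02, h20, h12, h21⟩ := tri3 S k j l hij hkl (Ne.symm hlj)
      rw [← f_W3 S f 0 1 k j h01 h10, ← f_H3 S f 0 2 k l h02 h20, ← f_H3 S f 1 2 j l h12 h21,
        ← map_inv, ← map_mul, ← map_mul, id3 a ha]
  by_cases hkj : k = j
  · subst hkj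
    rw [Equiv.swap_apply_right]
    by_cases hli : l = i
    · subst hli
      rw [Equiv.swap_apply_left]
      obtain ⟨m, hlm, hkm⟩ := exists_third hn l k
      obtain ⟨f, h01, h10, h02, h20, h12, h21⟩ := tri3 S l k m hij hlm hkm
      rw [← f_W3 S f 0 1 l k h01 h10, ← f_H3 S f 1 0 k l h10 h01, ← f_H3 S f 0 1 l k h01 h10,
        ← map_inv, ← map_mul, ← map_mul, id2 a ha]
    · rw [Equiv.swap_apply_of_ne_of_ne hli hkl.symm]
      obtain ⟨f, h01, h10, h02, h20, h12, h21⟩ := tri3 S i k l hij (Ne.symm hli) hkl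
      rw [← f_W3 S f 0 1 i k h01 h10, ← f_H3 S f 1 2 k l h12 h21, ← f_H3 S f 0 2 i l h02 h20,
        ← map_inv, ← map_mul, ← map_mul, id4 a ha]
  rw [Equiv.swap_apply_of_ne_of_ne hki hkj]
  by_cases hli : l = i
  · subst hli
    rw [Equiv.swap_apply_left]
    obtain ⟨f, h01, h10, h02, h20, h12, h21⟩ := tri3 S l j k hij (Ne.symm hki) (Ne.symm hkj)
    rw [← f_W3 S f 0 1 l j h01 h10, ← f_H3 S f 2 0 k l h20 h02, ← f_H3 S f 2 1 k j h21 h12,
      ← map_inv, ← map_mul, ← map_mul, id5 a ha]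
  by_cases hlj : l = j
  · subst hlj
    rw [Equiv.swap_apply_right]
    obtain ⟨f, h01, h10, h02, h20, h12, h21⟩ := tri3 S i l k hij (Ne.symm hki) (Ne.symm hkj)
    rw [← f_W3 S f 0 1 i l h01 h10, ← f_H3 S f 2 1 k l h21 h12, ← f_H3 S f 2 0 k i h20 h02,
      ← map_inv, ← map_mul, ← map_mul, id6 a ha]
  rw [Equiv.swap_apply_of_ne_of_ne hli hlj]
  have hc : Commute (S.w i j 1) (S.hh k l a) := by
    unfold StSys.hh
    exact Commute.mul_right
      (w_comm' S i j k l hij hkl (Ne.symm hki) (Ne.symm hli) (Ne.symm hkj) (Ne.symm hlj) _ _)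
      (Commute.inv_right
        (w_comm' S i j k l hij hkl (Ne.symm hki) (Ne.symm hli) (Ne.symm hkj) (Ne.symm hlj) _ _))
  rw [hc.eq, mul_assoc, mul_inv_cancel, mul_one]

theorem w_sq (hn : 3 ≤ n) (i j : Fin n) (hij : i ≠ j) : S.w i j 1 * S.w i j 1 = S.hh i j (-1) := by
  obtain ⟨m, him, hjm⟩ := exists_third hn i j
  obtain ⟨f, h01, h10, h02, h20, h12, h21⟩ := tri3 S i j m hij him hjm
  rw [← f_W3 S f 0 1 i j h01 h10, ← f_H3 S f 0 1 i j h01 h10, ← map_mul, id_sq]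

theorem x_mul_w (hn : 3 ≤ n) (i j : Fin n) (hij : i ≠ j) (a : F) (ha : a ≠ 0) :
    S.x i j a * S.w i j 1 = S.x j i a⁻¹ * S.hh i j (-a) * S.x i j (-a⁻¹) := by
  obtain ⟨m, him, hjm⟩ := exists_third hn i j
  obtain ⟨f, h01, h10, h02, h20, h12, h21⟩ := tri3 S i j m hij him hjm
  rw [← f_W3 S f 0 1 i j h01 h10, ← f_H3 S f 0 1 i j h01 h10, ← h01, ← h01, ← h10, ← map_mul,
    ← map_mul, ← map_mul, id_xw a ha]

theorem w_braid (i j k : Fin n) (hij : i ≠ j) (hik : i ≠ k) (hjk : j ≠ k) :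
    (S.w i j 1 * S.w j k 1) ^ 3 = 1 := by
  obtain ⟨f, h01, h10, h02, h20, h12, h21⟩ := tri3 S i j k hij hik hjk
  rw [← f_W3 S f 0 1 i j h01 h10, ← f_W3 S f 1 2 j k h12 h21, ← map_mul, ← map_pow, id_braid,
    map_one]

theorem w_comm (i j k l : Fin n) (hij : i ≠ j) (hkl : k ≠ l) (hik : i ≠ k) (hil : i ≠ l)
    (hjk : j ≠ k) (hjl : j ≠ l) : Commute (S.w i j 1) (S.w k l 1) :=
  w_comm' S i j k l hij hkl hik hil hjk hjl 1 1

end Cfsg.Agent.Lib.Helper36BPWh
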