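import Cfsg.Agent.Lib.Helper61SzCent

set_option autoImplicit false
set_option linter.unusedVariables false
set_option linter.unusedSectionVars false
set_option linter.unusedSimpArgs false

/-! Solubilizers in Zassenhaus groups of Suzuki type: abstract part 1 -/

namespace Cfsg.Agent.Lib.Helper36Sol

open Cfsg.Agent.Lib.Helper61Zass Cfsg.Agent.Lib.Helper61Fix2 Cfsg.Agent.Lib.Helper61Zass2
  Cfsg.Agent.Lib.Helper61Part Cfsg.Agent.Lib.Helper61SzCent

variable {G : Type*} [Group G] [Finite G] {O : Type*} [Finite O] [MulAction G O] {q : ℕ}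
  {inf : O} {Q Z : Subgroup G}

/-- normaliser of the centraliser of an element -/
abbrev NC (g : G) : Subgroup G :=
  Subgroup.normalizer ((Subgroup.centralizer ({g} : Set G) : Subgroup G) : Set G)

/-- `x` and `y` generate a proper subgroup -/
def Pr (x y : G) : Prop := Subgroup.closure ({x, y} : Set G) ≠ ⊤

/-- the hypothesis on maximal subgroups -/
def MaxH (G : Type*) [Group G] (O : Type*) [MulAction G O] : Prop :=
  ∀ M : Subgroup G, M ≠ ⊤ → (∃ α : O, ∀ x ∈ M, x • α = α) ∨
    (∃ g : G, g ≠ 1 ∧ ¬ 2 ∣ orderOf g ∧ M ≤ NC g)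

theorem ar0 {q : ℕ} (hq : 8 ≤ q) : 64 ≤ q ^ 2 ∧ 7 ≤ q - 1 := by
  constructor
  · nlinarith
  · omega
theorem ar1 {q : ℕ} (hq : 8 ≤ q) : q ^ 2 * (q - 1) < q ^ 2 * (q ^ 2 + 1) * (q - 1) := by
  obtain ⟨h1, h2⟩ := ar0 hq
  generalize q ^ 2 = a at *
  generalize q - 1 = b at *
  have : 0 < a * b * a := by positivity
  nlinarith
theorem ar2 {q : ℕ} (hq : 8 ≤ q) : (q ^ 2 + 1) * 4 < q ^ 2 * (q ^ 2 + 1) * (q - 1) := by
  obtain ⟨h1, h2⟩ := ar0 hq
  generalize q ^ 2 = a at *
  generalize q - 1 = b at *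
  have : 64 * 7 ≤ a * b := Nat.mul_le_mul h1 h2
  nlinarith
theorem ar3 {q : ℕ} (hq : 8 ≤ q) : 2 * (q - 1) < q ^ 2 * (q ^ 2 + 1) * (q - 1) := by
  obtain ⟨h1, h2⟩ := ar0 hq
  generalize q ^ 2 = a at *
  generalize q - 1 = b at *
  have : 64 * 65 ≤ a * (a + 1) := Nat.mul_le_mul h1 (by omega)
  nlinarith

theorem stab_ne_top (D : ZData G O q) (a : O) : MulAction.stabilizer G a ≠ ⊤ := by
  intro h
  have h1 := card_stab D a
  rw [h, Subgroup.card_top, D.card_G] at h1
  have := ar1 (q_ge D)
  omega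

theorem card_NC_lt (D : ZData G O q) (E : QData G O q inf Q Z) {g : G} (hg : g ≠ 1)
    (hodd : ¬ 2 ∣ orderOf g) : Nat.card (NC g) < Nat.card G := by
  have hq := q_ge D
  obtain ⟨h1, h2⟩ := card_normalizer_cases D E hg hodd
  rw [D.card_G]
  by_cases hf : Fpf O g
  · rw [h1 hf]
    rcases cent_cases D E hg hodd with ⟨x, hx, hgx, e⟩ | ⟨a, b, hab, ha, hb, e⟩
    · rw [e]
      have h3 := Nat.le_of_dvd (by positivity) (card_tor_dvd D hx)
      have := ar2 hq
      omega
    · exact absurd ha (hf a)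
  · rw [(h2 hf).2]
    exact ar3 hq

theorem NC_ne_top (D : ZData G O q) (E : QData G O q inf Q Z) {g : G} (hg : g ≠ 1)
    (hodd : ¬ 2 ∣ orderOf g) : NC g ≠ ⊤ := by
  intro h
  have := card_NC_lt D E hg hodd
  rw [h, Subgroup.card_top] at this
  exact lt_irrefl _ this

theorem closure_pair_le {x y : G} {M : Subgroup G} :
    Subgroup.closure ({x, y} : Set G) ≤ M ↔ x ∈ M ∧ y ∈ M := by
  rw [Subgroup.closure_le]
  constructor
  · intro h
    exact ⟨h (Set.mem_insert _ _), h (Set.mem_insert_of_mem _ rfl)⟩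
  · rintro ⟨h1, h2⟩ a ha
    rcases ha with rfl | rfl
    · exact h1
    · exact h2

theorem pr_iff (D : ZData G O q) (E : QData G O q inf Q Z) (hmax : MaxH G O) (x y : G) :
    Pr x y ↔ (∃ α : O, x • α = α ∧ y • α = α) ∨
      (∃ g : G, g ≠ 1 ∧ ¬ 2 ∣ orderOf g ∧ x ∈ NC g ∧ y ∈ NC g) := by
  constructor
  · intro h
    rcases hmax _ h with ⟨α, hα⟩ | ⟨g, hg, hodd, hle⟩
    · left
      exact ⟨α, hα x (Subgroup.subset_closure (Set.mem_insert _ _)),
        hα y (Subgroup.subset_closure (Set.mem_insert_of_mem _ rfl))⟩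
    · right
      obtain ⟨h1, h2⟩ := closure_pair_le.1 hle
      exact ⟨g, hg, hodd, h1, h2⟩
  · rintro (⟨α, h1, h2⟩ | ⟨g, hg, hodd, h1, h2⟩) htop
    · apply stab_ne_top D α
      rw [eq_top_iff, ← htop]
      exact closure_pair_le.2 ⟨h1, h2⟩
    · apply NC_ne_top D E hg hodd
      rw [eq_top_iff, ← htop]
      exact closure_pair_le.2 ⟨h1, h2⟩

/-- an odd order element of `NC g` has the same centraliser as `g` -/
theorem cent_eq_of_mem_NC (D : ZData G O q) (E : QData G O q inf Q Z) {g : G} (hg : g ≠ 1)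
    (hodd : ¬ 2 ∣ orderOf g) {x : G} (hx : x ≠ 1) (hxodd : ¬ 2 ∣ orderOf x) (hxN : x ∈ NC g) :
    Subgroup.centralizer ({x} : Set G) = Subgroup.centralizer ({g} : Set G) :=
  cent_eq D E hg hodd (odd_mem D E hg hodd hxN hxodd) hx

theorem self_mem_NC (x : G) : x ∈ NC x :=
  Subgroup.le_normalizer (mem_cent.2 (Commute.refl x))

/-- solubilizer of a fixed point free element -/
theorem sol_fpf (D : ZData G O q) (E : QData G O q inf Q Z) (hmax : MaxH G O) {x : G}
    (hx : Fpf O x) : {y : G | Pr x y} = (NC x : Set G) := by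
  have hx1 := fpf_ne_one D hx
  have hxo := odd_of_fpf D hx
  ext y
  rw [Set.mem_ofPred_eq, pr_iff D E hmax]
  constructor
  · rintro (⟨α, h1, h2⟩ | ⟨g, hg, hodd, h1, h2⟩)
    · exact absurd h1 (hx α)
    · have e := cent_eq_of_mem_NC D E hg hodd hx1 hxo h1
      show y ∈ NC x
      unfold NC
      rw [e]
      exact h2
  · intro hy
    right
    exact ⟨x, hx1, hxo, self_mem_NC x, hy⟩

theorem card_sol_fpf (D : ZData G O q) (E : QData G O q inf Q Z) (hmax : MaxH G O) {x : G}
    (hx : Fpf O x) :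
    Nat.card {y : G // Pr x y} = Nat.card (Subgroup.centralizer ({x} : Set G)) * 4 := by
  have h := sol_fpf D E hmax hx
  have h1 : Nat.card {y : G // Pr x y} = Nat.card (NC x) := by
    apply Nat.card_congr
    exact Equiv.subtypeEquivRight (fun y => by
      have : y ∈ {y : G | Pr x y} ↔ y ∈ (NC x : Set G) := by rw [h]
      exact this)
  rw [h1]
  exact (card_normalizer_cases D E (fpf_ne_one D hx) (odd_of_fpf D hx)).1 hx

/-- solubilizer of an element with two fixed points -/
theorem sol_two (D : ZData G O q) (E : QData G O q inf Q Z) (hmax : MaxH G O) {x : G}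
    (hx1 : x ≠ 1) (hxo : ¬ 2 ∣ orderOf x) {a b : O} (hab : a ≠ b) (ha : x • a = a)
    (hb : x • b = b) :
    {y : G | Pr x y} = ((MulAction.stabilizer G a : Set G) ∪ (MulAction.stabilizer G b : Set G))
      ∪ (NC x : Set G) := by
  ext y
  rw [Set.mem_ofPred_eq, pr_iff D E hmax]
  constructor
  · rintro (⟨α, h1, h2⟩ | ⟨g, hg, hodd, h1, h2⟩)
    · left
      by_cases h3 : α = a
      · left; rw [← h3]; exact h2
      · by_cases h4 : α = b
        · right; rw [← h4]; exact h2
        · exact absurd (D.three_point x a b α hab (Ne.symm h4) (Ne.symm h3) ha hb h1) hx1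
    · right
      have e := cent_eq_of_mem_NC D E hg hodd hx1 hxo h1
      show y ∈ NC x
      unfold NC
      rw [e]
      exact h2
  · rintro ((hy | hy) | hy)
    · left; exact ⟨a, ha, hy⟩
    · left; exact ⟨b, hb, hy⟩
    · right; exact ⟨x, hx1, hxo, self_mem_NC x, hy⟩

theorem card_sol_two (D : ZData G O q) (E : QData G O q inf Q Z) (hmax : MaxH G O) {x : G}
    (hx1 : x ≠ 1) (hxo : ¬ 2 ∣ orderOf x) {a b : O} (hab : a ≠ b) (ha : x • a = a)
    (hb : x • b = b) :
    Nat.card {y : G // Pr x y} = 2 * q ^ 2 * (q - 1) := by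
  have hq := q_ge D
  have h := sol_two D E hmax hx1 hxo hab ha hb
  have h0 : Nat.card {y : G // Pr x y} = ({y : G | Pr x y} : Set G).ncard :=
    Nat.card_coe_set_eq _
  rw [h0, h]
  set A : Set G := (MulAction.stabilizer G a : Set G) with hA
  set B : Set G := (MulAction.stabilizer G b : Set G) with hB
  set N : Set G := (NC x : Set G) with hN
  have eC := cent_eq_stab D E hx1 hab ha hb
  have hnf : ¬ Fpf O x := fun hf => hf a ha
  obtain ⟨c1, c2⟩ := (card_normalizer_cases D E hx1 hxo).2 hnf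
  have hAB : A ∩ B = ((Subgroup.centralizer ({x} : Set G) : Subgroup G) : Set G) := by
    rw [eC]; rfl
  have hABN : (A ∪ B) ∩ N = ((Subgroup.centralizer ({x} : Set G) : Subgroup G) : Set G) := by
    ext n
    constructor
    · rintro ⟨hn1, hn2⟩
      have hn3 : n⁻¹ * x * n⁻¹⁻¹ ∈ Subgroup.centralizer ({x} : Set G) :=
        mem_cent.2 (conj_mem_of_normalizer (Subgroup.inv_mem _ hn2))
      rw [inv_inv, eC] at hn3
      have k1 : x • (n • a) = n • a := by
        have : (n⁻¹ * x * n) • a = a := hn3.1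
        rw [mul_smul, mul_smul, inv_smul_eq_iff] at this
        exact this
      have k2 : x • (n • b) = n • b := by
        have : (n⁻¹ * x * n) • b = b := hn3.2
        rw [mul_smul, mul_smul, inv_smul_eq_iff] at this
        exact this
      have key : ∀ c : O, x • c = c → c = a ∨ c = b := by
        intro c hc
        by_contra hcon
        push Not at hcon
        exact hx1 (D.three_point x a b c hab (Ne.symm hcon.2) (Ne.symm hcon.1) ha hb hc)
      rw [eC]
      rcases hn1 with hn1 | hn1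
      · refine ⟨hn1, ?_⟩
        rcases key _ k2 with h5 | h5
        · exfalso
          apply hab
          have h6 : n • a = a := hn1
          exact (MulAction.injective n (h5.trans h6.symm)).symm
        · exact h5
      · refine ⟨?_, hn1⟩
        rcases key _ k1 with h5 | h5
        · exact h5
        · exfalso
          apply hab
          have h6 : n • b = b := hn1
          exact MulAction.injective n (h5.trans h6.symm)
    · intro hn
      refine ⟨?_, Subgroup.le_normalizer hn⟩
      rw [eC] at hn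
      exact Or.inl hn.1
  have e1 := Set.ncard_union_add_ncard_inter (A ∪ B) N
  have e2 := Set.ncard_union_add_ncard_inter A B
  rw [hABN] at e1
  rw [hAB] at e2
  have cA : A.ncard = q ^ 2 * (q - 1) := by
    rw [hA, ← Nat.card_coe_set_eq]; exact card_stab D a
  have cB : B.ncard = q ^ 2 * (q - 1) := by
    rw [hB, ← Nat.card_coe_set_eq]; exact card_stab D b
  have cN : N.ncard = 2 * (q - 1) := by
    rw [hN, ← Nat.card_coe_set_eq]; exact c2
  have cC : (((Subgroup.centralizer ({x} : Set G) : Subgroup G) : Set G)).ncard = q - 1 := by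
    rw [← Nat.card_coe_set_eq]; exact c1
  rw [cC, cN] at e1
  rw [cC, cA, cB] at e2
  have e3 : 2 * q ^ 2 * (q - 1) = q ^ 2 * (q - 1) + q ^ 2 * (q - 1) := by ring
  omega

end Cfsg.Agent.Lib.Helper36Sol
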