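import Cfsg.Agent.Lib.Helper36Sol
import Cfsg.Agent.Lib.Helper8SzMax

set_option autoImplicit false
set_option linter.unusedVariables false
set_option linter.unusedSectionVars false
set_option linter.unusedSimpArgs false

/-! Solubilizers in Zassenhaus groups of Suzuki type: abstract part 2 (involutions) -/

namespace Cfsg.Agent.Lib.Helper36Sol2

open Cfsg.Agent.Lib.Helper61Zass Cfsg.Agent.Lib.Helper61Fix2 Cfsg.Agent.Lib.Helper61Zass2
  Cfsg.Agent.Lib.Helper61Part Cfsg.Agent.Lib.Helper61SzCent Cfsg.Agent.Lib.Helper36Sol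

section general

variable {G : Type*} [Group G] [Finite G]

theorem inv_of_sq {s : G} (hs : s ^ 2 = 1) : s⁻¹ = s := by
  rw [pow_two] at hs
  exact inv_eq_of_mul_eq_one_left hs

theorem mem_NC_of_inv {n g : G} (h : n * g * n⁻¹ = g⁻¹) : n ∈ NC g := by
  rw [Subgroup.mem_normalizer_iff]
  intro k
  rw [mem_cent, mem_cent, ← conj_commute (g := n) (a := k) (b := g), h, Commute.inv_right_iff]

theorem cent_conj (n g : G) (k : G) :
    n * k * n⁻¹ ∈ Subgroup.centralizer ({n * g * n⁻¹} : Set G) ↔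
      k ∈ Subgroup.centralizer ({g} : Set G) := by
  rw [mem_cent, mem_cent, conj_commute]

theorem NC_conj (u g n : G) : u * n * u⁻¹ ∈ NC (u * g * u⁻¹) ↔ n ∈ NC g := by
  rw [Subgroup.mem_normalizer_iff, Subgroup.mem_normalizer_iff]
  constructor
  · intro h k
    have := h (u * k * u⁻¹)
    rw [cent_conj] at this
    rw [this]
    have e : u * n * u⁻¹ * (u * k * u⁻¹) * (u * n * u⁻¹)⁻¹ = u * (n * k * n⁻¹) * u⁻¹ := by group
    rw [e, cent_conj]
  · intro h k
    have := h (u⁻¹ * k * u)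
    have e1 : k = u * (u⁻¹ * k * u) * u⁻¹ := by group
    have e : u * n * u⁻¹ * k * (u * n * u⁻¹)⁻¹ = u * (n * (u⁻¹ * k * u) * n⁻¹) * u⁻¹ := by group
    rw [e, cent_conj, ← this]
    conv_lhs => rw [e1]
    rw [cent_conj]

end general

variable {G : Type*} [Group G] [Finite G] {O : Type*} [Finite O] [MulAction G O] {q : ℕ}
  {inf : O} {Q Z : Subgroup G}

/-- the product of two involutions with different fixed points has odd order -/
theorem odd_mul (D : ZData G O q) {s t : G} (hs1 : s ≠ 1) (hs : s ^ 2 = 1) (ht1 : t ≠ 1)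
    (ht : t ^ 2 = 1) {α β : O} (hsα : s • α = α) (htβ : t • β = β) (hαβ : α ≠ β) :
    ¬ 2 ∣ orderOf (s * t) := by
  rintro ⟨j, hj⟩
  have hpos := orderOf_pos (s * t)
  have hu1 : (s * t) ^ j ≠ 1 := pow_ne_one_of_lt_orderOf (by omega) (by omega)
  have hu2 : ((s * t) ^ j) ^ 2 = 1 := by rw [← pow_mul, mul_comm, ← hj, pow_orderOf_eq_one]
  have hsi := inv_of_sq hs
  have hti := inv_of_sq ht
  have hss : s * s = 1 := by rw [← pow_two, hs]
  have htt : t * t = 1 := by rw [← pow_two, ht]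
  have hcs : s * (s * t) * s⁻¹ = (s * t)⁻¹ := by
    rw [mul_inv_rev, hsi, hti, ← mul_assoc, hss, one_mul]
  have hct : t * (s * t) * t⁻¹ = (s * t)⁻¹ := by
    rw [mul_inv_rev, hsi, hti, mul_assoc, mul_assoc, htt, mul_one]
  have hui := inv_of_sq hu2
  have hsu : s * (s * t) ^ j * s⁻¹ = (s * t) ^ j := by
    rw [← conj_pow, hcs, inv_pow, hui]
  have htu : t * (s * t) ^ j * t⁻¹ = (s * t) ^ j := by
    rw [← conj_pow, hct, inv_pow, hui]
  have hsu' : s * (s * t) ^ j = (s * t) ^ j * s := by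
    conv_rhs => rw [← hsu]
    group
  have htu' : t * (s * t) ^ j = (s * t) ^ j * t := by
    conv_rhs => rw [← htu]
    group
  obtain ⟨c, hc, huniq⟩ := invol_fix D hu1 hu2
  have h1 : s • c = c := huniq _ (by rw [← mul_smul, ← hsu', mul_smul, hc])
  have h2 : t • c = c := huniq _ (by rw [← mul_smul, ← htu', mul_smul, hc])
  obtain ⟨c1, -, hs'⟩ := invol_fix D hs1 hs
  obtain ⟨c2, -, ht'⟩ := invol_fix D ht1 ht
  apply hαβ
  rw [hs' α hsα, ← hs' c h1, ht' β htβ, ← ht' c h2]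

/-- `w z y = z * z^y` -/
def w (z y : G) : G := z * (y * z * y⁻¹)

section invol

variable (D : ZData G O q) (E : QData G O q inf Q Z) {z : G} (hz1 : z ≠ 1) (hz2 : z ^ 2 = 1)
  (hzi : z • inf = inf)

include E hz2 hzi in
theorem z_mem_Q : z ∈ Q := E.Z_le (E.invol_mem z hz2 hzi)

include E hz1 hz2 hzi in
theorem commute_z_iff (g : G) : Commute g z ↔ g ∈ Q :=
  ⟨fun h => E.Q_cent z (z_mem_Q E hz2 hzi) hz1 g h,
    fun h => E.Z_central z (E.invol_mem z hz2 hzi) g h⟩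

include hz1 in
theorem cj_ne_one (y : G) : y * z * y⁻¹ ≠ 1 := by
  intro h
  apply hz1
  have : z = y⁻¹ * (y * z * y⁻¹) * y := by group
  rw [this, h]; group

include hz2 in
theorem cj_sq (y : G) : (y * z * y⁻¹) ^ 2 = 1 := by
  rw [conj_pow, hz2]; group

include hzi in
theorem cj_fix (y : G) : (y * z * y⁻¹) • (y • inf) = y • inf := by
  rw [mul_smul, mul_smul, inv_smul_smul, hzi]

include D hz1 hz2 hzi in
theorem w_odd {y : G} (hy : y • inf ≠ inf) : ¬ 2 ∣ orderOf (w z y) :=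
  odd_mul D hz1 hz2 (cj_ne_one hz1 y) (cj_sq hz2 y) hzi (cj_fix hzi y) (Ne.symm hy)

include E hz1 hz2 hzi in
theorem w_inf {y : G} (hy : y • inf ≠ inf) : w z y • inf ≠ inf := by
  intro h
  unfold w at h
  rw [mul_smul] at h
  have h1 : (y * z * y⁻¹) • inf = inf := by
    have := congrArg (fun a => z⁻¹ • a) h
    simp only [inv_smul_smul] at this
    rw [this, inv_smul_eq_iff, hzi]
  rw [mul_smul, mul_smul, ← eq_inv_smul_iff] at h1
  have h2 := E.Q_semireg z (z_mem_Q E hz2 hzi) hz1 _ h1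
  apply hy
  rw [inv_smul_eq_iff] at h2
  exact h2.symm

include E hz1 hz2 hzi in
theorem w_ne_one {y : G} (hy : y • inf ≠ inf) : w z y ≠ 1 := fun h =>
  w_inf E hz1 hz2 hzi hy (by rw [h, one_smul])

include hz2 in
theorem z_mem_NC (y : G) : z ∈ NC (w z y) := by
  apply mem_NC_of_inv
  unfold w
  have hzz : z * z = 1 := by rw [← pow_two, hz2]
  rw [mul_inv_rev, inv_of_sq hz2, inv_of_sq (cj_sq hz2 y), ← mul_assoc, hzz, one_mul]

include D E hz1 hz2 hzi in
theorem pr_iff_of_mem (hmax : MaxH G O) {x : G} (hxQ : x ∈ Q) (hx1 : x ≠ 1)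
    (hzx : ∀ M : Subgroup G, x ∈ M → z ∈ M) {y : G} (hy : y • inf ≠ inf) :
    Pr x y ↔ x ∈ NC (w z y) ∧ y ∈ NC (w z y) := by
  rw [pr_iff D E hmax]
  constructor
  · rintro (⟨α, h1, h2⟩ | ⟨g, hg, hodd, h1, h2⟩)
    · have := E.Q_semireg x hxQ hx1 α h1
      rw [this] at h2
      exact absurd h2 hy
    · have hzN := hzx _ h1
      have hwN : w z y ∈ NC g :=
        Subgroup.mul_mem _ hzN (Subgroup.mul_mem _ (Subgroup.mul_mem _ h2 hzN)
          (Subgroup.inv_mem _ h2))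
      have e := cent_eq_of_mem_NC D E hg hodd (w_ne_one E hz1 hz2 hzi hy)
        (w_odd D hz1 hz2 hzi hy) hwN
      unfold NC
      rw [e]
      exact ⟨h1, h2⟩
  · rintro ⟨h1, h2⟩
    right
    exact ⟨w z y, w_ne_one E hz1 hz2 hzi hy, w_odd D hz1 hz2 hzi hy, h1, h2⟩

include D E hz1 hz2 hzi in
theorem exists_c0 {y : G} (hy : y • inf ≠ inf) : ∃ c₀ ∈ Q, y * c₀ ∈ NC (w z y) := by
  have hodd := w_odd D hz1 hz2 hzi hy
  obtain ⟨j, hj⟩ : ∃ j, orderOf (w z y) = 2 * j + 1 := ⟨orderOf (w z y) / 2, by omega⟩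
  have hzz : z * z = 1 := by rw [← pow_two, hz2]
  have htt : (y * z * y⁻¹) * (y * z * y⁻¹) = 1 := by rw [← pow_two, cj_sq hz2 y]
  have hpow : (z * (y * z * y⁻¹)) ^ (2 * j + 1) = 1 := by
    rw [← hj]; exact pow_orderOf_eq_one _
  obtain ⟨-, hd⟩ := Cfsg.Agent.Lib.Helper8SzMax.dihedral_conj hzz htt hpow
  set d := (z * (y * z * y⁻¹)) ^ j * z with hdd
  refine ⟨y⁻¹ * d, ?_, ?_⟩
  · rw [← commute_z_iff E hz1 hz2 hzi]
    show y⁻¹ * d * z = z * (y⁻¹ * d)
    have e1 : d * z = (y * z * y⁻¹) * d := by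
      rw [← hd]; group
    rw [mul_assoc, e1]; group
  · rw [mul_inv_cancel_left, hdd]
    exact Subgroup.mul_mem _ (Subgroup.pow_mem _ (self_mem_NC _) j) (z_mem_NC hz2 y)

include E hz1 hz2 hzi in
theorem w_mul_right (y : G) {c : G} (hc : c ∈ Q) : w z (y * c) = w z y := by
  have h := ((commute_z_iff E hz1 hz2 hzi c).2 hc).eq
  unfold w
  congr 1
  have : y * c * z * (y * c)⁻¹ = y * (c * z) * c⁻¹ * y⁻¹ := by group
  rw [this, h]; group

include D E hz1 hz2 hzi in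
theorem card_fibre {y : G} (hy : y • inf ≠ inf) :
    Nat.card {c : G // c ∈ Q ∧ y * c ∈ NC (w z y)} = Nat.card (Q ⊓ NC (w z y) : Subgroup G) := by
  obtain ⟨c₀, hc₀, hyc⟩ := exists_c0 D E hz1 hz2 hzi hy
  apply Nat.card_congr
  refine (Equiv.mulLeft c₀⁻¹).subtypeEquiv ?_
  intro c
  show _ ↔ c₀⁻¹ * c ∈ Q ⊓ NC (w z y)
  rw [Subgroup.mem_inf]
  have e : y * c = (y * c₀) * (c₀⁻¹ * c) := by group
  constructor
  · rintro ⟨h1, h2⟩
    refine ⟨Q.mul_mem (Q.inv_mem hc₀) h1, ?_⟩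
    rw [e] at h2
    exact (Subgroup.mul_mem_cancel_left _ hyc).1 h2
  · rintro ⟨h1, h2⟩
    refine ⟨?_, ?_⟩
    · have := Q.mul_mem hc₀ h1
      rwa [mul_inv_cancel_left] at this
    · rw [e]
      exact Subgroup.mul_mem _ hyc h2

include E hz1 hz2 hzi in
theorem Q_inf_cent {y : G} (hy : y • inf ≠ inf) {v : G} (hvQ : v ∈ Q)
    (hvU : Commute v (w z y)) : v = 1 := by
  by_contra hv1
  have h1 := E.Q_cent v hvQ hv1 (w z y) hvU.symm
  exact w_inf E hz1 hz2 hzi hy (E.Q_fix _ h1)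

/-- the order of `Q ∩ N(C(w))` -/
noncomputable def kk (Q : Subgroup G) (z y : G) : ℕ := Nat.card (Q ⊓ NC (w z y) : Subgroup G)

include E hz1 hz2 hzi in
theorem kk_mul_le {y : G} (hy : y • inf ≠ inf) :
    kk Q z y * Nat.card (Subgroup.centralizer ({w z y} : Set G)) ≤ Nat.card (NC (w z y)) := by
  unfold kk
  rw [← Nat.card_prod]
  apply Nat.card_le_card_of_injective
    (fun p : (Q ⊓ NC (w z y) : Subgroup G) × (Subgroup.centralizer ({w z y} : Set G)) =>
      (⟨(p.1 : G) * (p.2 : G), Subgroup.mul_mem _ p.1.2.2 (Subgroup.le_normalizer p.2.2)⟩ :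
        NC (w z y)))
  rintro ⟨⟨c, hc⟩, ⟨u, hu⟩⟩ ⟨⟨c', hc'⟩, ⟨u', hu'⟩⟩ h
  have h1 : c * u = c' * u' := congrArg Subtype.val h
  have h2 : c'⁻¹ * c = u' * u⁻¹ := by
    have : c = c' * u' * u⁻¹ := by rw [← h1]; group
    rw [this]; group
  have h3 : c'⁻¹ * c = 1 := by
    apply Q_inf_cent E hz1 hz2 hzi hy (Q.mul_mem (Q.inv_mem hc'.1) hc.1)
    rw [h2]
    exact mem_cent.1 (Subgroup.mul_mem _ hu' (Subgroup.inv_mem _ hu))
  have h4 : c = c' := by
    have := congrArg (fun a => c' * a) h3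
    simpa using this
  subst h4
  have h5 : u = u' := mul_left_cancel h1
  subst h5
  rfl

include E hz1 hz2 hzi in
theorem two_le_kk (y : G) : 2 ≤ kk Q z y := by
  have hmem : z ∈ (Q ⊓ NC (w z y) : Subgroup G) := ⟨z_mem_Q E hz2 hzi, z_mem_NC hz2 y⟩
  have ho : orderOf (⟨z, hmem⟩ : (Q ⊓ NC (w z y) : Subgroup G)) = 2 := by
    rw [← Subgroup.orderOf_coe]
    exact orderOf_eq_prime hz2 hz1
  have := orderOf_dvd_natCard (⟨z, hmem⟩ : (Q ⊓ NC (w z y) : Subgroup G))
  rw [ho] at this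
  exact Nat.le_of_dvd Nat.card_pos this

include D E hz1 hz2 hzi in
theorem kk_not_fpf {y : G} (hy : y • inf ≠ inf) (hf : ¬ Fpf O (w z y)) : kk Q z y = 2 := by
  have hq := q_ge D
  have h1 := kk_mul_le E hz1 hz2 hzi hy
  obtain ⟨c1, c2⟩ := (card_normalizer_cases D E (w_ne_one E hz1 hz2 hzi hy)
    (w_odd D hz1 hz2 hzi hy)).2 hf
  rw [c1, c2] at h1
  have h2 : kk Q z y ≤ 2 := Nat.le_of_mul_le_mul_right h1 (by omega)
  have h3 := two_le_kk (Q := Q) E hz1 hz2 hzi y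
  omega

include D E hz1 hz2 hzi in
theorem kk_fpf {y : G} (hy : y • inf ≠ inf) (hf : Fpf O (w z y)) : kk Q z y = 4 := by
  have hq := q_ge D
  have h1 := kk_mul_le E hz1 hz2 hzi hy
  have hw1 := w_ne_one E hz1 hz2 hzi hy
  have hwo := w_odd D hz1 hz2 hzi hy
  have c1 := (card_normalizer_cases D E hw1 hwo).1 hf
  have hUpos : 0 < Nat.card (Subgroup.centralizer ({w z y} : Set G)) := Nat.card_pos
  have hUodd : ¬ 2 ∣ Nat.card (Subgroup.centralizer ({w z y} : Set G)) := by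
    rcases cent_cases D E hw1 hwo with ⟨x, hx, hgx, e⟩ | ⟨a, b, hab, ha, hb, e⟩
    · rw [e]
      intro h2
      have h3 := h2.trans (card_tor_dvd D hx)
      have h4 : 2 ∣ q ^ 2 := Dvd.dvd.pow (q_even D) (by norm_num)
      omega
    · exact absurd ha (hf a)
  rw [c1, mul_comm (Nat.card _) 4] at h1
  have h2 : kk Q z y ≤ 4 := Nat.le_of_mul_le_mul_right h1 hUpos
  have : Fact (Nat.Prime 2) := ⟨Nat.prime_two⟩
  have hzN := z_mem_NC hz2 y
  have ho : orderOf (⟨z, hzN⟩ : NC (w z y)) = 2 := by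
    rw [← Subgroup.orderOf_coe]
    exact orderOf_eq_prime hz2 hz1
  have hp0 : IsPGroup 2 (Subgroup.zpowers (⟨z, hzN⟩ : NC (w z y))) := by
    apply IsPGroup.of_card (n := 1)
    rw [Nat.card_zpowers, ho, pow_one]
  obtain ⟨P, hP⟩ := hp0.exists_le_sylow
  have hzP : (⟨z, hzN⟩ : NC (w z y)) ∈ (P : Subgroup (NC (w z y))) := hP (Subgroup.mem_zpowers _)
  have hcard : Nat.card P = 2 ^ 2 := by
    rw [Sylow.card_eq_multiplicity P, c1, Nat.factorization_mul hUpos.ne' (by norm_num)]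
    congr 1
    rw [Finsupp.add_apply, Nat.factorization_eq_zero_of_not_dvd hUodd, zero_add]
    have : (4 : ℕ) = 2 ^ 2 := by norm_num
    rw [this, Nat.Prime.factorization_pow Nat.prime_two]
    simp
  have hcomm : ∀ a b : P, a * b = b * a := by
    have := IsPGroup.isMulCommutative_of_card_eq_prime_sq hcard
    intro a b
    exact mul_comm' a b
  have h3 : Nat.card P ≤ kk Q z y := by
    unfold kk
    apply Nat.card_le_card_of_injective
      (fun v : P => (⟨((v : NC (w z y)) : G), by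
        refine ⟨(commute_z_iff E hz1 hz2 hzi _).1 ?_, (v : NC (w z y)).2⟩
        have := hcomm v ⟨⟨z, hzN⟩, hzP⟩
        exact congrArg (fun a : P => ((a : NC (w z y)) : G)) this⟩ :
          (Q ⊓ NC (w z y) : Subgroup G)))
    intro v v' h
    apply Subtype.ext
    apply Subtype.ext
    exact congrArg (fun a : (Q ⊓ NC (w z y) : Subgroup G) => (a : G)) h
  rw [hcard] at h3
  omega

include D E hz1 hz2 hzi in
theorem invol_unique' {y : G} (hy : y • inf ≠ inf) {v : G} (hvQ : v ∈ Q)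
    (hvN : v ∈ NC (w z y)) (hv1 : v ≠ 1) (hv2 : v ^ 2 = 1) : v = z := by
  have hvi := inv_of_sq hv2
  have hvv : v * v = 1 := by rw [← pow_two, hv2]
  have hc1 : Commute (v * w z y * v⁻¹) (w z y) := conj_mem_of_normalizer hvN
  -- `v` inverts `w`
  have hinv : v * w z y * v⁻¹ = (w z y)⁻¹ := by
    have hcU : Commute (w z y * (v * w z y * v⁻¹)) (w z y) :=
      (Commute.refl _).mul_left hc1
    have hcv : Commute (w z y * (v * w z y * v⁻¹)) v := by
      show w z y * (v * w z y * v⁻¹) * v = v * (w z y * (v * w z y * v⁻¹))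
      have e1 : w z y * (v * w z y * v⁻¹) * v = w z y * v * w z y := by group
      have e2 : v * (w z y * (v * w z y * v⁻¹)) = (v * w z y * v⁻¹) * (v * v) * w z y * v⁻¹ := by
        group
      rw [e1, e2, hvv, mul_one, hc1.eq, hvi]
      simp only [mul_assoc, hvv, mul_one]
    have hcQ := E.Q_cent v hvQ hv1 _ hcv
    have := Q_inf_cent E hz1 hz2 hzi hy hcQ hcU
    exact (eq_inv_of_mul_eq_one_right this)
  have hzinv : z * w z y * z⁻¹ = (w z y)⁻¹ := by
    unfold w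
    have hzz : z * z = 1 := by rw [← pow_two, hz2]
    rw [mul_inv_rev, inv_of_sq hz2, inv_of_sq (cj_sq hz2 y), ← mul_assoc, hzz, one_mul]
  have hzv : Commute (z * v) (w z y) := by
    show z * v * w z y = w z y * (z * v)
    have e1 : z * v * w z y = z * (v * w z y * v⁻¹) * v := by group
    have e2 : z * (w z y)⁻¹ = w z y * z := by
      have : z * (w z y)⁻¹ = (z * w z y * z⁻¹)⁻¹ * z := by group
      rw [this, hzinv, inv_inv]
    rw [e1, hinv, e2, mul_assoc]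
  have h1 := Q_inf_cent E hz1 hz2 hzi hy (Q.mul_mem (z_mem_Q E hz2 hzi) hvQ) hzv
  have h2 : v = z⁻¹ := eq_inv_of_mul_eq_one_right h1
  rw [h2, inv_of_sq hz2]

end invol

end Cfsg.Agent.Lib.Helper36Sol2
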