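import Cfsg.Agent.Lib.Helper36Sol2

set_option autoImplicit false
set_option linter.unusedVariables false
set_option linter.unusedSectionVars false
set_option linter.unusedSimpArgs false

/-! Solubilizers in Zassenhaus groups of Suzuki type: abstract part 3 (counting) -/

namespace Cfsg.Agent.Lib.Helper36Sol3

open Cfsg.Agent.Lib.Helper61Zass Cfsg.Agent.Lib.Helper61Fix2 Cfsg.Agent.Lib.Helper61Zass2
  Cfsg.Agent.Lib.Helper61Part Cfsg.Agent.Lib.Helper61SzCent Cfsg.Agent.Lib.Helper36Sol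
  Cfsg.Agent.Lib.Helper36Sol2

open Classical

variable {G : Type*} [Group G] [Fintype G] {O : Type*} [Fintype O] [MulAction G O] {q : ℕ}
  {inf : O} {Q Z : Subgroup G}

theorem card_subtype_eq_filter {α : Type*} [Fintype α] (p : α → Prop) :
    Nat.card {x : α // p x} = (Finset.univ.filter p).card := by
  rw [Nat.card_eq_fintype_card, Fintype.card_subtype]

theorem card_filter_mem (H : Subgroup G) :
    (Finset.univ.filter (fun x : G => x ∈ H)).card = Nat.card H :=
  (card_subtype_eq_filter (fun x => x ∈ H)).symm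

section

variable (D : ZData G O q) (E : QData G O q inf Q Z) {z : G} (hz1 : z ≠ 1) (hz2 : z ^ 2 = 1)
  (hzi : z • inf = inf)

include D E hz1 hz2 hzi in
theorem pairs (R : G → Prop) (hR : ∀ y c, c ∈ Q → (R (y * c) ↔ R y)) :
    ∑ y ∈ Finset.univ.filter (fun y : G => y • inf ≠ inf ∧ R y), kk Q z y
      = q ^ 2 *
        (Finset.univ.filter (fun y : G => (y • inf ≠ inf ∧ R y) ∧ y ∈ NC (w z y))).card := by
  set TT := Finset.univ.filter (fun y : G => y • inf ≠ inf ∧ R y) with hTT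
  set QF := Finset.univ.filter (fun c : G => c ∈ Q) with hQF
  set SS := Finset.univ.filter (fun y : G => (y • inf ≠ inf ∧ R y) ∧ y ∈ NC (w z y)) with hSS
  have h1 : ∀ y ∈ TT, kk Q z y = (QF.filter (fun c => y * c ∈ NC (w z y))).card := by
    intro y hy
    have hy' := (Finset.mem_filter.1 hy).2.1
    unfold kk
    rw [← card_fibre D E hz1 hz2 hzi hy', card_subtype_eq_filter, hQF, Finset.filter_filter]
    congr!
  rw [Finset.sum_congr rfl h1]
  have h2 := Finset.sum_card_bipartiteAbove_eq_sum_card_bipartiteBelow (s := TT) (t := QF)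
    (fun y c => y * c ∈ NC (w z y))
  have h3 : ∀ c ∈ QF, (TT.filter (fun y => y * c ∈ NC (w z y))).card = SS.card := by
    intro c hc
    have hcQ : c ∈ Q := (Finset.mem_filter.1 hc).2
    apply Finset.card_bij (fun y _ => y * c)
    · intro y hy
      obtain ⟨hy1, hy2⟩ := Finset.mem_filter.1 hy
      obtain ⟨-, hy3, hy4⟩ := Finset.mem_filter.1 hy1
      refine Finset.mem_filter.2 ⟨Finset.mem_univ _, ⟨?_, (hR y c hcQ).2 hy4⟩, ?_⟩
      · rw [mul_smul, E.Q_fix c hcQ]; exact hy3
      · rw [w_mul_right E hz1 hz2 hzi y hcQ]; exact hy2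
    · intro a _ b _ h; exact mul_right_cancel h
    · intro y' hy'
      obtain ⟨-, ⟨hy3, hy4⟩, hy5⟩ := Finset.mem_filter.1 hy'
      have hci : c⁻¹ ∈ Q := Q.inv_mem hcQ
      refine ⟨y' * c⁻¹, ?_, by group⟩
      refine Finset.mem_filter.2 ⟨Finset.mem_filter.2 ⟨Finset.mem_univ _, ?_, (hR y' c⁻¹ hci).2 hy4⟩, ?_⟩
      · rw [mul_smul, E.Q_fix _ hci]; exact hy3
      · rw [w_mul_right E hz1 hz2 hzi y' hci, inv_mul_cancel_right]; exact hy5
  calc _ = ∑ c ∈ QF, (TT.filter (fun y => y * c ∈ NC (w z y))).card := h2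
    _ = ∑ c ∈ QF, SS.card := Finset.sum_congr rfl h3
    _ = q ^ 2 * SS.card := by rw [Finset.sum_const, smul_eq_mul, hQF, card_filter_mem, E.Q_card]

include D E hz1 hz2 hzi in
theorem kk_add_fix {y : G} (hy : y • inf ≠ inf) :
    kk Q z y + (Finset.univ.filter (fun a : O => w z y • a = a)).card = 4 := by
  have hw1 := w_ne_one E hz1 hz2 hzi hy
  have hwo := w_odd D hz1 hz2 hzi hy
  by_cases hf : Fpf O (w z y)
  · rw [kk_fpf D E hz1 hz2 hzi hy hf]
    have : Finset.univ.filter (fun a : O => w z y • a = a) = ∅ := by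
      apply Finset.filter_false_of_mem
      intro a _
      exact hf a
    rw [this, Finset.card_empty]
  · rw [kk_not_fpf D E hz1 hz2 hzi hy hf]
    unfold Fpf at hf
    push Not at hf
    obtain ⟨a, ha⟩ := hf
    obtain ⟨b, hba, hb⟩ := odd_two_fix D hw1 hwo ha
    have : Finset.univ.filter (fun a : O => w z y • a = a) = {a, b} := by
      ext c
      rw [Finset.mem_filter, Finset.mem_insert, Finset.mem_singleton]
      constructor
      · rintro ⟨-, hc⟩
        by_contra hcon
        push Not at hcon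
        exact hw1 (D.three_point _ a b c (Ne.symm hba) (Ne.symm hcon.2) (Ne.symm hcon.1) ha hb hc)
      · rintro (rfl | rfl)
        · exact ⟨Finset.mem_univ _, ha⟩
        · exact ⟨Finset.mem_univ _, hb⟩
    rw [this, Finset.card_pair (Ne.symm hba)]

include D E hz1 hz2 hzi in
theorem card_conj_fibre {t : G} (ht1 : t ≠ 1) (ht2 : t ^ 2 = 1) :
    (Finset.univ.filter (fun y : G => y * z * y⁻¹ = t)).card = q ^ 2 := by
  obtain ⟨c, hc, -⟩ := invol_fix D ht1 ht2
  have h2t := D.two_trans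
  have h1t : MulAction.IsPretransitive G O := MulAction.isPretransitive_of_is_two_pretransitive
  obtain ⟨k, hk⟩ := MulAction.exists_smul_eq G inf c
  have htZ : k⁻¹ * t * k ∈ Z := by
    apply E.invol_mem
    · have := conj_pow (a := k⁻¹) (b := t) (i := 2)
      rw [inv_inv] at this
      rw [this, ht2]; group
    · rw [mul_smul, mul_smul, hk, hc, ← hk, inv_smul_smul]
  have ht1' : k⁻¹ * t * k ≠ 1 := by
    intro h
    apply ht1
    have : t = k * (k⁻¹ * t * k) * k⁻¹ := by group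
    rw [this, h]; group
  obtain ⟨g, hg⟩ := E.Z_conj z (E.invol_mem z hz2 hzi) _ htZ hz1 ht1'
  have hy0 : (k * g) * z * (k * g)⁻¹ = t := by
    have : (k * g) * z * (k * g)⁻¹ = k * (g * z * g⁻¹) * k⁻¹ := by group
    rw [this, hg]; group
  rw [← E.Q_card, ← card_filter_mem]
  apply Finset.card_bij (fun y _ => (k * g)⁻¹ * y)
  · intro y hy
    have hy' := (Finset.mem_filter.1 hy).2
    refine Finset.mem_filter.2 ⟨Finset.mem_univ _, ?_⟩
    rw [← commute_z_iff E hz1 hz2 hzi]
    show (k * g)⁻¹ * y * z = z * ((k * g)⁻¹ * y)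
    have e1 : y * z = t * y := by rw [← hy']; group
    have e2 : (k * g)⁻¹ * t = z * (k * g)⁻¹ := by rw [← hy0]; group
    rw [mul_assoc, e1, ← mul_assoc, e2, mul_assoc]
  · intro a _ b _ h; exact mul_left_cancel h
  · intro c' hc'
    have hc'' := (Finset.mem_filter.1 hc').2
    have hcomm := ((commute_z_iff E hz1 hz2 hzi c').2 hc'').eq
    refine ⟨(k * g) * c', Finset.mem_filter.2 ⟨Finset.mem_univ _, ?_⟩, by group⟩
    have : (k * g) * c' * z * ((k * g) * c')⁻¹ = (k * g) * (c' * z) * c'⁻¹ * (k * g)⁻¹ := by group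
    rw [this, hcomm, ← hy0]; group

include D in
theorem card_swap {a b : O} (hab : a ≠ b) {t₀ : G} (h1 : t₀ • a = b) (h2 : t₀ • b = a) :
    (Finset.univ.filter (fun t : G => t • a = b ∧ t • b = a)).card = q - 1 := by
  rw [← card_stab_two D hab, ← card_filter_mem]
  apply Finset.card_bij (fun t _ => t₀⁻¹ * t)
  · intro t ht
    obtain ⟨-, ht1, ht2⟩ := Finset.mem_filter.1 ht
    refine Finset.mem_filter.2 ⟨Finset.mem_univ _, ?_, ?_⟩
    · show (t₀⁻¹ * t) • a = a
      rw [mul_smul, ht1, inv_smul_eq_iff, h1]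
    · show (t₀⁻¹ * t) • b = b
      rw [mul_smul, ht2, inv_smul_eq_iff, h2]
  · intro x _ y _ h; exact mul_left_cancel h
  · intro u hu
    obtain ⟨-, hu1, hu2⟩ := Finset.mem_filter.1 hu
    have hu1' : u • a = a := hu1
    have hu2' : u • b = b := hu2
    refine ⟨t₀ * u, Finset.mem_filter.2 ⟨Finset.mem_univ _, ?_, ?_⟩, by group⟩
    · rw [mul_smul, hu1', h1]
    · rw [mul_smul, hu2', h2]

include D E hz1 hz2 hzi in
theorem card_fix_a (hswap : ∀ (a b : O) (t : G), a ≠ b → t • a = b → t • b = a → t ^ 2 = 1)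
    {a : O} (ha : a ≠ inf) :
    (Finset.univ.filter (fun y : G => y • inf ≠ inf ∧ w z y • a = a)).card = (q - 2) * q ^ 2 := by
  have hq := q_ge D
  have hzQ := z_mem_Q E hz2 hzi
  have hzi' := inv_of_sq hz2
  set b := z • a with hb
  have hab : a ≠ b := fun h => ha (E.Q_semireg z hzQ hz1 a h.symm)
  have hzb : z • b = a := by rw [hb, ← mul_smul, ← pow_two, hz2, one_smul]
  have hbi : b ≠ inf := by
    intro h; apply ha; rw [← hzb, h, hzi]
  set DD := Finset.univ.filter (fun t : G => t • a = b ∧ t • b = a) with hDD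
  have hzDD : z ∈ DD := Finset.mem_filter.2 ⟨Finset.mem_univ _, rfl, hzb⟩
  have hcard : (DD.erase z).card = q - 2 := by
    rw [Finset.card_erase_of_mem hzDD, card_swap D hab rfl hzb]; omega
  have hmaps : ((Finset.univ.filter (fun y : G => y • inf ≠ inf ∧ w z y • a = a) : Finset G) :
      Set G).MapsTo (fun y => y * z * y⁻¹) (DD.erase z) := by
    intro y hy
    obtain ⟨-, hy1, hy2⟩ := Finset.mem_filter.1 (Finset.mem_coe.1 hy)
    have h1 : (y * z * y⁻¹) • a = b := by
      unfold w at hy2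
      rw [mul_smul] at hy2
      have e : z • a = z⁻¹ • a := by rw [hzi']
      rw [hb, e, eq_inv_smul_iff]; exact hy2
    have h2 : (y * z * y⁻¹) • b = a := by
      rw [← h1, ← mul_smul, ← pow_two, cj_sq hz2, one_smul]
    refine Finset.mem_coe.2 (Finset.mem_erase.2
      ⟨?_, Finset.mem_filter.2 ⟨Finset.mem_univ _, h1, h2⟩⟩)
    intro h
    apply hy1
    apply E.Q_fix
    rw [← commute_z_iff E hz1 hz2 hzi]
    have := congrArg (· * y) h
    show y * z = z * y
    simpa using this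
  rw [Finset.card_eq_sum_card_fiberwise hmaps]
  have hfib : ∀ t ∈ DD.erase z,
      ((Finset.univ.filter (fun y : G => y • inf ≠ inf ∧ w z y • a = a)).filter
        (fun y => y * z * y⁻¹ = t)).card = q ^ 2 := by
    intro t ht
    obtain ⟨htz, ht'⟩ := Finset.mem_erase.1 ht
    obtain ⟨-, ht1, ht2⟩ := Finset.mem_filter.1 ht'
    have ht_sq := hswap a b t hab ht1 ht2
    have ht_ne : t ≠ 1 := by
      rintro rfl
      exact hab (by simpa using ht1)
    rw [← card_conj_fibre D E hz1 hz2 hzi ht_ne ht_sq, Finset.filter_filter]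
    congr 1
    apply Finset.filter_congr
    intro y _
    constructor
    · exact fun h => h.2
    · intro h
      refine ⟨⟨?_, ?_⟩, h⟩
      · intro hyi
        have hyi' : y⁻¹ • inf = inf := by rw [inv_smul_eq_iff, hyi]
        have hti : t • inf = inf := by
          rw [← h, mul_smul, mul_smul, hyi', hzi, hyi]
        have h1 : z * t = 1 := D.three_point (z * t) inf a b (Ne.symm ha) hab (Ne.symm hbi)
          (by rw [mul_smul, hti, hzi]) (by rw [mul_smul, ht1, hzb])
          (by rw [mul_smul, ht2])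
        apply htz
        rw [eq_inv_of_mul_eq_one_right h1, hzi']
      · unfold w
        rw [h, mul_smul, ht1, hzb]
  rw [Finset.sum_congr rfl hfib, Finset.sum_const, smul_eq_mul, hcard]

include D E hz1 hz2 hzi in
theorem sum_fix (hswap : ∀ (a b : O) (t : G), a ≠ b → t • a = b → t • b = a → t ^ 2 = 1) :
    ∑ y ∈ Finset.univ.filter (fun y : G => y • inf ≠ inf),
      (Finset.univ.filter (fun a : O => w z y • a = a)).card = q ^ 2 * ((q - 2) * q ^ 2) := by
  have h := Finset.sum_card_bipartiteAbove_eq_sum_card_bipartiteBelow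
    (s := Finset.univ.filter (fun y : G => y • inf ≠ inf)) (t := (Finset.univ : Finset O))
    (fun y a => w z y • a = a)
  have h0 : ((Finset.univ.filter (fun y : G => y • inf ≠ inf)).filter
      (fun y => w z y • inf = inf)).card = 0 := by
    rw [Finset.card_eq_zero]
    apply Finset.filter_false_of_mem
    intro y hy
    exact w_inf E hz1 hz2 hzi (Finset.mem_filter.1 hy).2
  have h1 : ∀ a ∈ (Finset.univ : Finset O).erase inf,
      ((Finset.univ.filter (fun y : G => y • inf ≠ inf)).filter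
        (fun y => w z y • a = a)).card = (q - 2) * q ^ 2 := by
    intro a ha
    rw [Finset.filter_filter]
    exact card_fix_a D E hz1 hz2 hzi hswap (Finset.mem_erase.1 ha).1
  have hO : ((Finset.univ : Finset O).erase inf).card = q ^ 2 := by
    rw [Finset.card_erase_of_mem (Finset.mem_univ _), Finset.card_univ,
      ← Nat.card_eq_fintype_card, D.card_O]
    simp
  calc _ = ∑ a ∈ (Finset.univ : Finset O), ((Finset.univ.filter (fun y : G => y • inf ≠ inf)).filter
        (fun y => w z y • a = a)).card := h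
    _ = ∑ a ∈ (Finset.univ : Finset O).erase inf,
        ((Finset.univ.filter (fun y : G => y • inf ≠ inf)).filter
        (fun y => w z y • a = a)).card := by
        rw [← Finset.sum_erase_add _ _ (Finset.mem_univ inf), h0, add_zero]
    _ = _ := by rw [Finset.sum_congr rfl h1, Finset.sum_const, smul_eq_mul, hO]

include D E hz1 hz2 hzi in
theorem sum_kk (hswap : ∀ (a b : O) (t : G), a ≠ b → t • a = b → t • b = a → t ^ 2 = 1) :
    ∑ y ∈ Finset.univ.filter (fun y : G => y • inf ≠ inf), kk Q z y + q ^ 2 * ((q - 2) * q ^ 2)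
      = (Finset.univ.filter (fun y : G => y • inf ≠ inf)).card * 4 := by
  rw [← sum_fix D E hz1 hz2 hzi hswap, ← Finset.sum_add_distrib]
  rw [Finset.sum_congr rfl (fun y hy => kk_add_fix D E hz1 hz2 hzi (Finset.mem_filter.1 hy).2),
    Finset.sum_const, smul_eq_mul]

include D in
theorem card_T : (Finset.univ.filter (fun y : G => y • inf ≠ inf)).card + q ^ 2 * (q - 1)
    = q ^ 2 * (q ^ 2 + 1) * (q - 1) := by
  have h := Finset.card_filter_add_card_filter_not (s := (Finset.univ : Finset G))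
    (fun y : G => y • inf = inf)
  have h1 : (Finset.univ.filter (fun y : G => y • inf = inf)).card = q ^ 2 * (q - 1) := by
    rw [← card_stab D inf, ← card_filter_mem]
    rfl
  rw [h1, Finset.card_univ, ← Nat.card_eq_fintype_card, D.card_G] at h
  rw [← h, add_comm]

include D E hz1 hz2 hzi in
theorem card_sol_Q (hmax : MaxH G O) {x : G} (hxQ : x ∈ Q) (hx1 : x ≠ 1)
    (hzx : ∀ M : Subgroup G, x ∈ M → z ∈ M) :
    Nat.card {y : G // Pr x y} = q ^ 2 * (q - 1) +
      (Finset.univ.filter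
        (fun y : G => (y • inf ≠ inf ∧ x ∈ NC (w z y)) ∧ y ∈ NC (w z y))).card := by
  rw [card_subtype_eq_filter]
  have h := Finset.card_filter_add_card_filter_not (s := Finset.univ.filter (fun y : G => Pr x y))
    (fun y : G => y • inf = inf)
  rw [← h, Finset.filter_filter, Finset.filter_filter]
  congr 1
  · rw [← card_stab D inf, ← card_filter_mem]
    congr 1
    apply Finset.filter_congr
    intro y _
    constructor
    · exact fun h => h.2
    · intro hy
      refine ⟨?_, hy⟩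
      rw [pr_iff D E hmax]
      left
      exact ⟨inf, E.Q_fix x hxQ, hy⟩
  · congr 1
    apply Finset.filter_congr
    intro y _
    constructor
    · rintro ⟨h1, h2⟩
      obtain ⟨h3, h4⟩ := (pr_iff_of_mem D E hz1 hz2 hzi hmax hxQ hx1 hzx h2).1 h1
      exact ⟨⟨h2, h3⟩, h4⟩
    · rintro ⟨⟨h2, h3⟩, h4⟩
      exact ⟨(pr_iff_of_mem D E hz1 hz2 hzi hmax hxQ hx1 hzx h2).2 ⟨h3, h4⟩, h2⟩

include D E hz1 hz2 hzi in
theorem sum_kk_eq (hswap : ∀ (a b : O) (t : G), a ≠ b → t • a = b → t • b = a → t ^ 2 = 1) :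
    ∑ y ∈ Finset.univ.filter (fun y : G => y • inf ≠ inf), kk Q z y + 2 * q ^ 4 = 3 * q ^ 5 ∧
    (Finset.univ.filter (fun y : G => y • inf ≠ inf)).card + q ^ 4 = q ^ 5 := by
  have hq := q_ge D
  have e2 := sum_kk D E hz1 hz2 hzi hswap
  have e3 := card_T (inf := inf) D
  generalize ∑ y ∈ Finset.univ.filter (fun y : G => y • inf ≠ inf), kk Q z y = K at *
  generalize (Finset.univ.filter (fun y : G => y • inf ≠ inf)).card = T at *
  obtain ⟨s, rfl⟩ : ∃ s, q = s + 8 := ⟨q - 8, by omega⟩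
  have a1 : s + 8 - 1 = s + 7 := by omega
  have a2 : s + 8 - 2 = s + 6 := by omega
  rw [a1] at e3
  rw [a2] at e2
  constructor
  · nlinarith
  · nlinarith

include D E hz1 hz2 hzi in
theorem card_sol_invol (hmax : MaxH G O)
    (hswap : ∀ (a b : O) (t : G), a ≠ b → t • a = b → t • b = a → t ^ 2 = 1) :
    Nat.card {y : G // Pr z y} = q ^ 2 * (4 * q - 3) := by
  have hq := q_ge D
  rw [card_sol_Q D E hz1 hz2 hzi hmax (z_mem_Q E hz2 hzi) hz1 (fun M h => h)]
  have e1 := pairs D E hz1 hz2 hzi (fun y => z ∈ NC (w z y)) (by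
    intro y c hc
    rw [w_mul_right E hz1 hz2 hzi y hc])
  have e0 : Finset.univ.filter (fun y : G => y • inf ≠ inf ∧ z ∈ NC (w z y))
      = Finset.univ.filter (fun y : G => y • inf ≠ inf) := by
    apply Finset.filter_congr
    intro y _
    exact ⟨fun h => h.1, fun h => ⟨h, z_mem_NC hz2 y⟩⟩
  rw [e0] at e1
  obtain ⟨e2, -⟩ := sum_kk_eq D E hz1 hz2 hzi hswap
  rw [e1] at e2
  generalize (Finset.univ.filter
        (fun y : G => (y • inf ≠ inf ∧ z ∈ NC (w z y)) ∧ y ∈ NC (w z y))).card = S at *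
  obtain ⟨s, rfl⟩ : ∃ s, q = s + 8 := ⟨q - 8, by omega⟩
  have a1 : s + 8 - 1 = s + 7 := by omega
  have a2 : 4 * (s + 8) - 3 = 4 * s + 29 := by omega
  rw [a1, a2]
  have h3 : (s + 8) ^ 2 * (S + 2 * (s + 8) ^ 2) = (s + 8) ^ 2 * (3 * (s + 8) ^ 3) := by
    nlinarith
  have h4 := Nat.eq_of_mul_eq_mul_left (by positivity) h3
  nlinarith

include D E hz1 hz2 hzi in
theorem kk_cases {y : G} (hy : y • inf ≠ inf) : kk Q z y = 2 ∨ kk Q z y = 4 := by
  by_cases hf : Fpf O (w z y)
  · right; exact kk_fpf D E hz1 hz2 hzi hy hf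
  · left; exact kk_not_fpf D E hz1 hz2 hzi hy hf

include D E hz1 hz2 hzi in
theorem card_sq {y : G} (hy : y • inf ≠ inf) :
    (Finset.univ.filter (fun v : G => (v ∈ Q ∧ v ^ 2 = z) ∧ v ∈ NC (w z y))).card + 2
      = kk Q z y := by
  have hk2 := two_le_kk (Q := Q) E hz1 hz2 hzi y
  have hsub : ({1, z} : Finset G) ⊆ Finset.univ.filter (fun v : G => v ∈ Q ⊓ NC (w z y)) := by
    intro v hv
    rw [Finset.mem_insert, Finset.mem_singleton] at hv
    refine Finset.mem_filter.2 ⟨Finset.mem_univ _, ?_⟩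
    rcases hv with rfl | rfl
    · exact Subgroup.one_mem _
    · exact ⟨z_mem_Q E hz2 hzi, z_mem_NC hz2 y⟩
  have heq : Finset.univ.filter (fun v : G => (v ∈ Q ∧ v ^ 2 = z) ∧ v ∈ NC (w z y))
      = (Finset.univ.filter (fun v : G => v ∈ Q ⊓ NC (w z y))) \ {1, z} := by
    ext v
    rw [Finset.mem_sdiff, Finset.mem_filter, Finset.mem_filter, Finset.mem_insert,
      Finset.mem_singleton]
    constructor
    · rintro ⟨-, ⟨h1, h2⟩, h3⟩
      refine ⟨⟨Finset.mem_univ _, h1, h3⟩, ?_⟩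
      rintro (rfl | rfl)
      · rw [one_pow] at h2; exact hz1 h2.symm
      · rw [hz2] at h2; exact hz1 h2.symm
    · rintro ⟨⟨-, h1, h3⟩, h4⟩
      push Not at h4
      have hv2 : v ^ 2 ≠ 1 := fun h => h4.2 (invol_unique' D E hz1 hz2 hzi hy h1 h3 h4.1 h)
      have hpow : v ^ kk Q z y = 1 := by
        have := pow_card_eq_one' (x := (⟨v, h1, h3⟩ : (Q ⊓ NC (w z y) : Subgroup G)))
        exact congrArg Subtype.val this
      have hv4 : (v ^ 2) ^ 2 = 1 := by
        rcases kk_cases D E hz1 hz2 hzi hy with h | h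
        · rw [h] at hpow; exact absurd hpow hv2
        · rw [h] at hpow; rw [← pow_mul]; exact hpow
      exact ⟨Finset.mem_univ _, ⟨h1, invol_unique' D E hz1 hz2 hzi hy (Q.pow_mem h1 2)
        (Subgroup.pow_mem _ h3 2) hv2 hv4⟩, h3⟩
  rw [heq, Finset.card_sdiff_of_subset hsub, card_filter_mem, Finset.card_pair (Ne.symm hz1)]
  unfold kk at hk2 ⊢
  omega

include E hz1 hz2 hzi in
theorem w_conj (y : G) {u : G} (hu : u ∈ Q) : w z (u * y * u⁻¹) = u * w z y * u⁻¹ := by
  have h := ((commute_z_iff E hz1 hz2 hzi u).2 hu).eq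
  have h' : u⁻¹ * z = z * u⁻¹ := by
    have : u⁻¹ * z = u⁻¹ * (z * u) * u⁻¹ := by group
    rw [this, ← h]; group
  unfold w
  have e1 : u * y * u⁻¹ * z * (u * y * u⁻¹)⁻¹ = u * y * (u⁻¹ * z) * u * y⁻¹ * u⁻¹ := by group
  have e2 : u * (z * (y * z * y⁻¹)) * u⁻¹ = (u * z) * y * z * y⁻¹ * u⁻¹ := by group
  rw [e1, e2, h', h]
  group

include E hz1 hz2 hzi in
theorem card_T_conj (v : G) {u : G} (hu : u ∈ Q) :
    (Finset.univ.filter (fun y : G => y • inf ≠ inf ∧ u * v * u⁻¹ ∈ NC (w z y))).card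
      = (Finset.univ.filter (fun y : G => y • inf ≠ inf ∧ v ∈ NC (w z y))).card := by
  symm
  have hui : u • inf = inf := E.Q_fix u hu
  have hui' : u⁻¹ • inf = inf := E.Q_fix _ (Q.inv_mem hu)
  apply Finset.card_bij (fun y _ => u * y * u⁻¹)
  · intro y hy
    obtain ⟨-, h1, h2⟩ := Finset.mem_filter.1 hy
    refine Finset.mem_filter.2 ⟨Finset.mem_univ _, ?_, ?_⟩
    · rw [mul_smul, mul_smul, hui']
      intro h
      apply h1
      have h' : u • y • inf = u • inf := by rw [h, hui]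
      exact MulAction.injective u h'
    · rw [w_conj E hz1 hz2 hzi y hu, NC_conj]; exact h2
  · intro a _ b _ h
    exact mul_left_cancel (mul_right_cancel h)
  · intro y hy
    obtain ⟨-, h1, h2⟩ := Finset.mem_filter.1 hy
    refine ⟨u⁻¹ * y * u, Finset.mem_filter.2 ⟨Finset.mem_univ _, ?_, ?_⟩, by group⟩
    · rw [mul_smul, mul_smul, hui]
      intro h
      apply h1
      rw [inv_smul_eq_iff, hui] at h
      exact h
    · have e : y = u * (u⁻¹ * y * u) * u⁻¹ := by group
      rw [e, w_conj E hz1 hz2 hzi _ hu, NC_conj] at h2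
      exact h2

include D E hz1 hz2 hzi in
theorem card_sol_four (hmax : MaxH G O)
    (hswap : ∀ (a b : O) (t : G), a ≠ b → t • a = b → t • b = a → t ^ 2 = 1)
    (hV : (Finset.univ.filter (fun v : G => v ∈ Q ∧ v ^ 2 = z)).card = q)
    (hQ4 : ∀ v v' : G, v ∈ Q → v' ∈ Q → v ^ 2 = z → v' ^ 2 = z →
      ∃ u ∈ Q, u * v * u⁻¹ = v' ∨ u * v * u⁻¹ = v'⁻¹)
    {x : G} (hxQ : x ∈ Q) (hxz : x ^ 2 = z) :
    Nat.card {y : G // Pr x y} = q ^ 2 * (q + 3) := by
  have hq := q_ge D
  have hx1 : x ≠ 1 := by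
    rintro rfl
    rw [one_pow] at hxz
    exact hz1 hxz.symm
  rw [card_sol_Q D E hz1 hz2 hzi hmax hxQ hx1 (fun M h => hxz ▸ M.pow_mem h 2)]
  have e1 := pairs D E hz1 hz2 hzi (fun y => x ∈ NC (w z y)) (by
    intro y c hc
    rw [w_mul_right E hz1 hz2 hzi y hc])
  -- `kk = 4` on `T_x`
  have hk4 : ∀ y ∈ Finset.univ.filter (fun y : G => y • inf ≠ inf ∧ x ∈ NC (w z y)),
      kk Q z y = 4 := by
    intro y hy
    obtain ⟨-, h1, h2⟩ := Finset.mem_filter.1 hy
    have h3 := card_sq D E hz1 hz2 hzi h1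
    have h4 : 0 < (Finset.univ.filter
        (fun v : G => (v ∈ Q ∧ v ^ 2 = z) ∧ v ∈ NC (w z y))).card :=
      Finset.card_pos.2 ⟨x, Finset.mem_filter.2 ⟨Finset.mem_univ _, ⟨hxQ, hxz⟩, h2⟩⟩
    rcases kk_cases D E hz1 hz2 hzi h1 with h | h
    · omega
    · exact h
  rw [Finset.sum_congr rfl hk4, Finset.sum_const, smul_eq_mul] at e1
  -- double counting
  have h2 := Finset.sum_card_bipartiteAbove_eq_sum_card_bipartiteBelow
    (s := Finset.univ.filter (fun y : G => y • inf ≠ inf))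
    (t := Finset.univ.filter (fun v : G => v ∈ Q ∧ v ^ 2 = z))
    (fun y v => v ∈ NC (w z y))
  have h3 : ∀ v ∈ Finset.univ.filter (fun v : G => v ∈ Q ∧ v ^ 2 = z),
      ((Finset.univ.filter (fun y : G => y • inf ≠ inf)).filter
        (fun y => v ∈ NC (w z y))).card
      = (Finset.univ.filter (fun y : G => y • inf ≠ inf ∧ x ∈ NC (w z y))).card := by
    intro v hv
    obtain ⟨-, hvQ, hvz⟩ := Finset.mem_filter.1 hv
    rw [Finset.filter_filter]
    obtain ⟨u, hu, h | h⟩ := hQ4 x v hxQ hvQ hxz hvz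
    · rw [← h, card_T_conj E hz1 hz2 hzi x hu]
    · rw [← card_T_conj E hz1 hz2 hzi x hu, h]
      congr 1
      apply Finset.filter_congr
      intro y _
      rw [Subgroup.inv_mem_iff]
  have h4 : ∀ y ∈ Finset.univ.filter (fun y : G => y • inf ≠ inf),
      ((Finset.univ.filter (fun v : G => v ∈ Q ∧ v ^ 2 = z)).filter
        (fun v => v ∈ NC (w z y))).card + 2 = kk Q z y := by
    intro y hy
    rw [Finset.filter_filter]
    exact card_sq D E hz1 hz2 hzi (Finset.mem_filter.1 hy).2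
  have h5 : ∑ y ∈ Finset.univ.filter (fun y : G => y • inf ≠ inf),
      ((Finset.univ.filter (fun v : G => v ∈ Q ∧ v ^ 2 = z)).filter
        (fun v => v ∈ NC (w z y))).card
      + (Finset.univ.filter (fun y : G => y • inf ≠ inf)).card * 2
      = ∑ y ∈ Finset.univ.filter (fun y : G => y • inf ≠ inf), kk Q z y := by
    rw [← Finset.sum_congr rfl h4, Finset.sum_add_distrib, Finset.sum_const, smul_eq_mul]
  have h6 : ∑ y ∈ Finset.univ.filter (fun y : G => y • inf ≠ inf),
      ((Finset.univ.filter (fun v : G => v ∈ Q ∧ v ^ 2 = z)).filter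
        (fun v => v ∈ NC (w z y))).card
      = q * (Finset.univ.filter (fun y : G => y • inf ≠ inf ∧ x ∈ NC (w z y))).card := by
    refine h2.trans ?_
    show ∑ v ∈ Finset.univ.filter (fun v : G => v ∈ Q ∧ v ^ 2 = z),
      ((Finset.univ.filter (fun y : G => y • inf ≠ inf)).filter
        (fun y => v ∈ NC (w z y))).card = _
    rw [Finset.sum_congr rfl h3, Finset.sum_const, smul_eq_mul, hV]
  rw [h6] at h5
  obtain ⟨e2, e3⟩ := sum_kk_eq D E hz1 hz2 hzi hswap
  rw [← h5] at e2
  generalize (Finset.univ.filter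
        (fun y : G => (y • inf ≠ inf ∧ x ∈ NC (w z y)) ∧ y ∈ NC (w z y))).card = S at *
  generalize (Finset.univ.filter (fun y : G => y • inf ≠ inf ∧ x ∈ NC (w z y))).card = Tx at *
  generalize (Finset.univ.filter (fun y : G => y • inf ≠ inf)).card = T at *
  have hq0 : 0 < q := by omega
  -- q * Tx + T * 2 + 2 q^4 = 3 q^5, T + q^4 = q^5
  have k1 : q * Tx = q * q ^ 4 := by nlinarith
  have k2 : Tx = q ^ 4 := Nat.eq_of_mul_eq_mul_left hq0 k1
  rw [k2] at e1
  have k3 : q ^ 2 * S = q ^ 2 * (4 * q ^ 2) := by rw [← e1]; ring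
  have k4 : S = 4 * q ^ 2 := Nat.eq_of_mul_eq_mul_left (by positivity) k3
  rw [k4]
  obtain ⟨s, rfl⟩ : ∃ s, q = s + 8 := ⟨q - 8, by omega⟩
  have a1 : s + 8 - 1 = s + 7 := by omega
  rw [a1]
  ring

end

end Cfsg.Agent.Lib.Helper36Sol3
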