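import Cfsg.Agent.Lib.Helper43SpDefs

set_option autoImplicit false

/-! Project 243, piece `cd1l` (the pieces `cUdec`, `cQdec`, `cUAQ` (`UA_x`), `ctl` are the extra hypotheses at the
end). -/

namespace Cfsg.Agent.Lib.Helper36SpCd1l

open Matrix Cfsg.Agent.Lib.Helper43St Cfsg.Agent.Lib.Helper43Sp

variable {m : ℕ} {F : Type*} [Field F] {P : Type*} [Group P] (S : CSys m F P)

variable {Sg : Type*} [Group Sg] (A : StSys m F Sg) (ι : Sg →* P)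

theorem d1_long (_hm : 3 ≤ m)
    (_hι : ∀ i j t, i ≠ j → ι (A.x i j t) = S.x (Sum.inl i) (Sum.inl j) t)
    (L : Fin m) (_hL : L.val + 1 = m) (y : P) (hy : y ∈ S.U)
    (U_dec : ∀ y ∈ S.U, ∃ u ∈ A.U, ∃ q ∈ S.Q, y = ι u * q)
    (Q_dec : ∀ q ∈ S.Q, ∃ c, ∃ q' ∈ S.Q' L, q = S.x (Sum.inl L) (Sum.inr L) c * q')
    (UA_x : ∀ u ∈ A.U, ∀ c : F, (S.x (Sum.inl L) (Sum.inr L) c)⁻¹ *
      (ι u * S.x (Sum.inl L) (Sum.inr L) c * (ι u)⁻¹) ∈ S.Q' L)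
    (tl_UA : ∀ u ∈ A.U,
      (S.w (Sum.inl L) (Sum.inr L) 1)⁻¹ * ι u * S.w (Sum.inl L) (Sum.inr L) 1 ∈ S.U)
    (tl_Q' : ∀ q ∈ S.Q' L,
      (S.w (Sum.inl L) (Sum.inr L) 1)⁻¹ * q * S.w (Sum.inl L) (Sum.inr L) 1 ∈ S.U) :
    ∃ a y', y = S.x (Sum.inl L) (Sum.inr L) a * y' ∧
      (S.w (Sum.inl L) (Sum.inr L) 1)⁻¹ * y' * S.w (Sum.inl L) (Sum.inr L) 1 ∈ S.U := by
  obtain ⟨u, hu, q, hq, rfl⟩ := U_dec y hy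
  obtain ⟨c, q', hq', rfl⟩ := Q_dec q hq
  have h1 := tl_Q' _ (UA_x u hu c)
  have h2 := tl_UA u hu
  have h3 := tl_Q' q' hq'
  refine ⟨c, (S.x (Sum.inl L) (Sum.inr L) c)⁻¹ *
      (ι u * S.x (Sum.inl L) (Sum.inr L) c * (ι u)⁻¹) * ι u * q', by group, ?_⟩
  have h4 := S.U.mul_mem (S.U.mul_mem h1 h2) h3
  have e : (S.w (Sum.inl L) (Sum.inr L) 1)⁻¹ * ((S.x (Sum.inl L) (Sum.inr L) c)⁻¹ *
      (ι u * S.x (Sum.inl L) (Sum.inr L) c * (ι u)⁻¹) * ι u * q') * S.w (Sum.inl L) (Sum.inr L) 1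
      = (S.w (Sum.inl L) (Sum.inr L) 1)⁻¹ * ((S.x (Sum.inl L) (Sum.inr L) c)⁻¹ *
          (ι u * S.x (Sum.inl L) (Sum.inr L) c * (ι u)⁻¹)) * S.w (Sum.inl L) (Sum.inr L) 1 *
        ((S.w (Sum.inl L) (Sum.inr L) 1)⁻¹ * ι u * S.w (Sum.inl L) (Sum.inr L) 1) *
        ((S.w (Sum.inl L) (Sum.inr L) 1)⁻¹ * q' * S.w (Sum.inl L) (Sum.inr L) 1) := by
    group
  rw [e]
  exact h4

end Cfsg.Agent.Lib.Helper36SpCd1l
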