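import Cfsg.Agent.Lib.Helper43SpDefs

set_option autoImplicit false

/-! Project 243, piece `ciH` (the piece `chshort` is the extra hypothesis `hh_short` at the end). -/

namespace Cfsg.Agent.Lib.Helper36SpCiH

open Matrix Cfsg.Agent.Lib.Helper43St Cfsg.Agent.Lib.Helper43Sp

variable {m : ℕ} {F : Type*} [Field F] {P : Type*} [Group P] (S : CSys m F P)

variable {Sg : Type*} [Group Sg] (A : StSys m F Sg) (ι : Sg →* P)

theorem iota_w (hι : ∀ i j t, i ≠ j → ι (A.x i j t) = S.x (Sum.inl i) (Sum.inl j) t) (i j : Fin m)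
    (hij : i ≠ j) (a : F) : ι (A.w i j a) = S.w (Sum.inl i) (Sum.inl j) a := by
  unfold StSys.w CSys.w
  rw [map_mul, map_mul, hι i j _ hij, hι j i _ hij.symm]

theorem iota_hh (hι : ∀ i j t, i ≠ j → ι (A.x i j t) = S.x (Sum.inl i) (Sum.inl j) t) (i j : Fin m)
    (hij : i ≠ j) (a : F) : ι (A.hh i j a) = S.hh (Sum.inl i) (Sum.inl j) a := by
  unfold StSys.hh CSys.hh
  rw [map_mul, map_inv, iota_w S A ι hι i j hij, iota_w S A ι hι i j hij]

theorem iota_H (hι : ∀ i j t, i ≠ j → ι (A.x i j t) = S.x (Sum.inl i) (Sum.inl j) t)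
    (n : Sg) (hn : n ∈ A.H)
    (hh_short : ∀ (i j : Fin m), i ≠ j → ∀ u : F, u ≠ 0 →
      S.hh (Sum.inl i) (Sum.inl j) u = S.hl i u * (S.hl j u)⁻¹) : ι n ∈ S.H := by
  have hle : A.H ≤ S.H.comap ι := by
    unfold StSys.H
    rw [Subgroup.closure_le]
    rintro _ ⟨i, j, a, hij, ha, rfl⟩
    change ι (A.hh i j a) ∈ S.H
    rw [iota_hh S A ι hι i j hij, hh_short i j hij a ha]
    exact S.H.mul_mem (Subgroup.subset_closure ⟨i, a, ha, rfl⟩)
      (S.H.inv_mem (Subgroup.subset_closure ⟨j, a, ha, rfl⟩))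
  exact hle hn

end Cfsg.Agent.Lib.Helper36SpCiH
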