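import Cfsg.Agent.Lib.Helper43SpDefs
import Cfsg.Agent.Lib.Helper43GlDefs

set_option autoImplicit false

/-! Project 243, piece `cnform` (the piece `ckconj` is the extra hypothesis `k_conj` at the end;
`Mon2` is written out). -/

namespace Cfsg.Agent.Lib.Helper36SpCnform

open Matrix Cfsg.Agent.Lib.Helper43St Cfsg.Agent.Lib.Helper43Sp
open Cfsg.Agent.Lib.Helper43Gl (wv hv)

variable {m : ℕ} {F : Type*} [Field F] {P : Type*} [Group P] (S : CSys m F P)

/-- monomial 2 x 2 matrices -/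
def Mon2 (g : SpecialLinearGroup (Fin 2) F) : Prop :=
  (g 0 1 = 0 ∧ g 1 0 = 0) ∨ (g 0 0 = 0 ∧ g 1 1 = 0)

theorem Mon2_one : Mon2 (1 : SpecialLinearGroup (Fin 2) F) := by
  left
  simp

theorem Mon2.mul {a b : SpecialLinearGroup (Fin 2) F} (ha : Mon2 a) (hb : Mon2 b) : Mon2 (a * b) := by
  have e : ∀ i j : Fin 2, (a * b) i j = a i 0 * b 0 j + a i 1 * b 1 j := by
    intro i j
    change ((a : Matrix (Fin 2) (Fin 2) F) * (b : Matrix (Fin 2) (Fin 2) F)) i j = _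
    rw [Matrix.mul_apply, Fin.sum_univ_two]
  unfold Mon2
  rw [e, e, e, e]
  rcases ha with ⟨h1, h2⟩ | ⟨h1, h2⟩ <;> rcases hb with ⟨h3, h4⟩ | ⟨h3, h4⟩
  · left; rw [h1, h2, h3, h4]; simp
  · right; rw [h1, h2, h3, h4]; simp
  · right; rw [h1, h2, h3, h4]; simp
  · left; rw [h1, h2, h3, h4]; simp

theorem Mon2.inv {a : SpecialLinearGroup (Fin 2) F} (ha : Mon2 a) : Mon2 a⁻¹ := by
  have e : ∀ i j : Fin 2, (a⁻¹) i j = (Matrix.adjugate (a : Matrix (Fin 2) (Fin 2) F)) i j :=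
    fun i j => rfl
  unfold Mon2
  rw [e, e, e, e, Matrix.adjugate_fin_two]
  rcases ha with ⟨h1, h2⟩ | ⟨h1, h2⟩
  · left
    have h1' : (a : Matrix (Fin 2) (Fin 2) F) 0 1 = 0 := h1
    have h2' : (a : Matrix (Fin 2) (Fin 2) F) 1 0 = 0 := h2
    simp [h1', h2']
  · right
    have h1' : (a : Matrix (Fin 2) (Fin 2) F) 0 0 = 0 := h1
    have h2' : (a : Matrix (Fin 2) (Fin 2) F) 1 1 = 0 := h2
    simp [h1', h2']

theorem Mon2_wv : Mon2 (wv 0 1 1 : SpecialLinearGroup (Fin 2) F) := by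
  right
  unfold wv
  constructor <;>
    simp [Matrix.mul_apply, Fin.sum_univ_two, tv_apply]

theorem simple_cases' (a b : I m) (h : Simple a b) :
    (∃ i j : Fin m, j.val = i.val + 1 ∧ a = Sum.inl i ∧ b = Sum.inl j) ∨
    (∃ L : Fin m, L.val + 1 = m ∧ a = Sum.inl L ∧ b = Sum.inr L) := by
  obtain ⟨h1, h2⟩ := h
  rcases a with i | i
  · rcases b with j | j
    · left
      exact ⟨i, j, h1, rfl, rfl⟩
    · right
      simp only [rk, Sum.elim_inl, Sum.elim_inr] at h1 h2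
      have hi := i.2
      have hj := j.2
      have hij : i = j := Fin.ext (by omega)
      subst hij
      exact ⟨i, by omega, rfl, rfl⟩
  · simp only [rk, Sum.elim_inr] at h2
    have hi := i.2
    omega

variable {Sg : Type*} [Group Sg] (A : StSys m F Sg) (ι : Sg →* P)
  (κ : (Fin m → SpecialLinearGroup (Fin 2) F) →* P)

theorem iota_w (hι : ∀ i j t, i ≠ j → ι (A.x i j t) = S.x (Sum.inl i) (Sum.inl j) t) (i j : Fin m)
    (hij : i ≠ j) : ι (A.w i j 1) = S.w (Sum.inl i) (Sum.inl j) 1 := by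
  unfold StSys.w CSys.w
  rw [map_mul, map_mul, hι i j _ hij, hι j i _ hij.symm]

theorem kap_w (hκ : ∀ i t, κ (Pi.mulSingle i (tv 0 1 t)) = S.x (Sum.inl i) (Sum.inr i) t ∧
        κ (Pi.mulSingle i (tv 1 0 t)) = S.x (Sum.inr i) (Sum.inl i) t) (L : Fin m) :
    κ (Pi.mulSingle L (wv 0 1 1)) = S.w (Sum.inl L) (Sum.inr L) 1 := by
  unfold wv CSys.w
  rw [Pi.mulSingle_mul, Pi.mulSingle_mul, map_mul, map_mul, (hκ L _).1, (hκ L _).2]

theorem n_form (_hm : 2 ≤ m) (hι : ∀ i j t, i ≠ j → ι (A.x i j t) = S.x (Sum.inl i) (Sum.inl j) t)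
    (hκ : ∀ i t, κ (Pi.mulSingle i (tv 0 1 t)) = S.x (Sum.inl i) (Sum.inr i) t ∧
        κ (Pi.mulSingle i (tv 1 0 t)) = S.x (Sum.inr i) (Sum.inl i) t)
    (ν : P) (hν : ν ∈ S.N)
    (k_conj : ∀ (i j : Fin m), i ≠ j → ∀ z : Fin m → SpecialLinearGroup (Fin 2) F,
      S.w (Sum.inl i) (Sum.inl j) 1 * κ z * (S.w (Sum.inl i) (Sum.inl j) 1)⁻¹ =
        κ (fun k => z (Equiv.swap i j k)) ∧
      (S.w (Sum.inl i) (Sum.inl j) 1)⁻¹ * κ z * S.w (Sum.inl i) (Sum.inl j) 1 =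
        κ (fun k => z (Equiv.swap i j k))) :
    ∃ n ∈ A.N, ∃ z : Fin m → SpecialLinearGroup (Fin 2) F,
      (∀ i, (z i 0 1 = 0 ∧ z i 1 0 = 0) ∨ (z i 0 0 = 0 ∧ z i 1 1 = 0)) ∧ ν = ι n * κ z := by
  suffices H : ∃ n ∈ A.N, ∃ z : Fin m → SpecialLinearGroup (Fin 2) F,
      (∀ i, Mon2 (z i)) ∧ ν = ι n * κ z from H
  have hmonS : ∀ (L : Fin m) (W : SpecialLinearGroup (Fin 2) F), Mon2 W →
      ∀ i, Mon2 ((Pi.mulSingle L W : Fin m → SpecialLinearGroup (Fin 2) F) i) := by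
    intro L W hW i
    by_cases h : i = L
    · subst h
      rw [Pi.mulSingle_eq_same]
      exact hW
    · rw [Pi.mulSingle_eq_of_ne h]
      exact Mon2_one
  unfold CSys.N at hν
  induction hν using Subgroup.closure_induction_right with
  | one => exact ⟨1, A.N.one_mem, 1, fun _ => Mon2_one, by simp⟩
  | mul_right x hx y hy ih =>
    obtain ⟨n, hn, z, hz, rfl⟩ := ih
    obtain ⟨a, b, hab, rfl⟩ := hy
    rcases simple_cases' a b hab with ⟨i, j, hij, rfl, rfl⟩ | ⟨L, hL, rfl, rfl⟩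
    · have hne : i ≠ j := by
        intro e
        rw [e] at hij
        omega
      refine ⟨n * A.w i j 1, A.N.mul_mem hn (Subgroup.subset_closure ⟨i, j, hij, rfl⟩),
        fun k => z (Equiv.swap i j k), fun k => hz _, ?_⟩
      rw [← (k_conj i j hne z).2, map_mul, iota_w S A ι hι i j hne]
      group
    · refine ⟨n, hn, z * Pi.mulSingle L (wv 0 1 1), fun k => (hz k).mul (hmonS L _ Mon2_wv k), ?_⟩
      rw [map_mul, kap_w S κ hκ L, mul_assoc]
  | mul_inv_cancel x hx y hy ih =>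
    obtain ⟨n, hn, z, hz, rfl⟩ := ih
    obtain ⟨a, b, hab, rfl⟩ := hy
    rcases simple_cases' a b hab with ⟨i, j, hij, rfl, rfl⟩ | ⟨L, hL, rfl, rfl⟩
    · have hne : i ≠ j := by
        intro e
        rw [e] at hij
        omega
      refine ⟨n * (A.w i j 1)⁻¹,
        A.N.mul_mem hn (A.N.inv_mem (Subgroup.subset_closure ⟨i, j, hij, rfl⟩)),
        fun k => z (Equiv.swap i j k), fun k => hz _, ?_⟩
      rw [← (k_conj i j hne z).1, map_mul, map_inv, iota_w S A ι hι i j hne]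
      group
    · refine ⟨n, hn, z * (Pi.mulSingle L (wv 0 1 1))⁻¹,
        fun k => (hz k).mul (hmonS L _ Mon2_wv k).inv, ?_⟩
      rw [map_mul, map_inv, kap_w S κ hκ L, mul_assoc]

end Cfsg.Agent.Lib.Helper36SpCnform
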