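import Cfsg.Agent.Lib.Helper43SpDefs
import Cfsg.Agent.Lib.Helper15BPWact
import Cfsg.Agent.Lib.Helper36SpXbasic

set_option autoImplicit false

/-! Project 243, piece `cwSt`. -/

namespace Cfsg.Agent.Lib.Helper36SpCwSt

open Matrix Cfsg.Agent.Lib.Helper43St Cfsg.Agent.Lib.Helper43Sp Cfsg.Agent.Lib.Helper36SpXbasic

variable {m : ℕ} {F : Type*} [Field F] {P : Type*} [Group P] (S : CSys m F P)

/-- conjugation by `g` and `g⁻¹` carries the root subgroup `(c, d)` into `(c', d')` -/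
def CJ (g : P) (c d c' d' : I m) : Prop :=
  ∀ t, (∃ t', g * S.x c d t * g⁻¹ = S.x c' d' t') ∧ (∃ t', g⁻¹ * S.x c d t * g = S.x c' d' t')

theorem CJ_sym (g : P) (c d c' d' : I m) (h : ab c ≠ ab d) (h' : ab c' ≠ ab d')
    (H : CJ S g (ng d) (ng c) (ng d') (ng c')) : CJ S g c d c' d' := by
  intro t
  have h'' : ab (ng d') ≠ ab (ng c') := by
    rw [ab_ng, ab_ng]
    exact Ne.symm h'
  obtain ⟨⟨t1, e1⟩, ⟨t2, e2⟩⟩ := H (-(sg F c * sg F d * t))
  rw [S.sym c d t h]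
  refine ⟨⟨-(sg F (ng d') * sg F (ng c') * t1), ?_⟩, ⟨-(sg F (ng d') * sg F (ng c') * t2), ?_⟩⟩
  · rw [e1, S.sym _ _ t1 h'', ng_ng, ng_ng]
  · rw [e2, S.sym _ _ t2 h'', ng_ng, ng_ng]

theorem base (i j : Fin m) (hij : i ≠ j) (e : I m) (h1 : ab e ≠ i) (h2 : ab e ≠ j) (p q : Fin 3)
    (hpq : p ≠ q) :
    CJ S (S.w (Sum.inl i) (Sum.inl j) 1) ((![Sum.inl i, Sum.inl j, e] : Fin 3 → I m) p)
      ((![Sum.inl i, Sum.inl j, e] : Fin 3 → I m) q)
      ((![Sum.inl i, Sum.inl j, e] : Fin 3 → I m) (Equiv.swap 0 1 p))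
      ((![Sum.inl i, Sum.inl j, e] : Fin 3 → I m) (Equiv.swap 0 1 q)) := by
  intro t
  have hinj : Function.Injective (ab ∘ (![Sum.inl i, Sum.inl j, e] : Fin 3 → I m)) := by
    intro a b hab
    fin_cases a <;> fin_cases b <;> simp [ab] at hab ⊢
    · exact hij hab
    · exact h1 hab.symm
    · exact hij hab.symm
    · exact h2 hab.symm
    · exact h1 hab
    · exact h2 hab
  obtain ⟨f, hf⟩ := S.tri _ hinj
  have hW : f (Helper15BPWact.W3 F) = S.w (Sum.inl i) (Sum.inl j) 1 := by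
    unfold Helper15BPWact.W3 CSys.w
    rw [map_mul, map_mul, hf 0 1 _ (by decide), hf 1 0 _ (by decide)]
    rfl
  have hpq' : Equiv.swap (0 : Fin 3) 1 p ≠ Equiv.swap 0 1 q := (Equiv.swap 0 1).injective.ne hpq
  obtain ⟨⟨t1, e1⟩, ⟨t2, e2⟩⟩ := Helper15BPWact.sl3_w (F := F) p q hpq t
  refine ⟨⟨t1, ?_⟩, ⟨t2, ?_⟩⟩
  · have := congrArg f e1
    rwa [map_mul, map_mul, map_inv, hW, hf p q t hpq, hf _ _ t1 hpq'] at this
  · have := congrArg f e2
    rwa [map_mul, map_mul, map_inv, hW, hf p q t hpq, hf _ _ t2 hpq'] at this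

theorem sw_eq (i j : Fin m) : sw (Sum.inl i : I m) (Sum.inl j) =
    Equiv.swap (Sum.inl i) (Sum.inl j) * Equiv.swap (Sum.inr i) (Sum.inr j) := by
  unfold sw
  rw [if_neg (by simp [ng])]
  rfl

theorem sw_inl_i (i j : Fin m) : sw (Sum.inl i : I m) (Sum.inl j) (Sum.inl i) = Sum.inl j := by
  have e : Equiv.swap (Sum.inr i : I m) (Sum.inr j) (Sum.inl i) = Sum.inl i :=
    Equiv.swap_apply_of_ne_of_ne (by simp) (by simp)
  rw [sw_eq, Equiv.Perm.mul_apply, e, Equiv.swap_apply_left]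

theorem sw_inl_j (i j : Fin m) : sw (Sum.inl i : I m) (Sum.inl j) (Sum.inl j) = Sum.inl i := by
  have e : Equiv.swap (Sum.inr i : I m) (Sum.inr j) (Sum.inl j) = Sum.inl j :=
    Equiv.swap_apply_of_ne_of_ne (by simp) (by simp)
  rw [sw_eq, Equiv.Perm.mul_apply, e, Equiv.swap_apply_right]

theorem sw_inr_i (i j : Fin m) : sw (Sum.inl i : I m) (Sum.inl j) (Sum.inr i) = Sum.inr j := by
  have e : Equiv.swap (Sum.inl i : I m) (Sum.inl j) (Sum.inr j) = Sum.inr j :=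
    Equiv.swap_apply_of_ne_of_ne (by simp) (by simp)
  rw [sw_eq, Equiv.Perm.mul_apply, Equiv.swap_apply_left, e]

theorem sw_inr_j (i j : Fin m) : sw (Sum.inl i : I m) (Sum.inl j) (Sum.inr j) = Sum.inr i := by
  have e : Equiv.swap (Sum.inl i : I m) (Sum.inl j) (Sum.inr i) = Sum.inr i :=
    Equiv.swap_apply_of_ne_of_ne (by simp) (by simp)
  rw [sw_eq, Equiv.Perm.mul_apply, Equiv.swap_apply_right, e]

theorem sw_other (i j : Fin m) (e : I m) (h1 : ab e ≠ i) (h2 : ab e ≠ j) :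
    sw (Sum.inl i : I m) (Sum.inl j) e = e := by
  have n1 : e ≠ Sum.inl i := by rintro rfl; exact h1 rfl
  have n2 : e ≠ Sum.inl j := by rintro rfl; exact h2 rfl
  have n3 : e ≠ Sum.inr i := by rintro rfl; exact h1 rfl
  have n4 : e ≠ Sum.inr j := by rintro rfl; exact h2 rfl
  rw [sw_eq, Equiv.Perm.mul_apply, Equiv.swap_apply_of_ne_of_ne n3 n4,
    Equiv.swap_apply_of_ne_of_ne n1 n2]

theorem w_short_tri (i j : Fin m) (hij : i ≠ j) (c d : I m)
    (h : ((ab c = i ∨ ab c = j) ∧ ab d ≠ i ∧ ab d ≠ j) ∨ ((ab d = i ∨ ab d = j) ∧ ab c ≠ i ∧ ab c ≠ j))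
    (t : F) :
    (∃ t', S.w (Sum.inl i) (Sum.inl j) 1 * S.x c d t * (S.w (Sum.inl i) (Sum.inl j) 1)⁻¹ =
      S.x (sw (Sum.inl i) (Sum.inl j) c) (sw (Sum.inl i) (Sum.inl j) d) t') ∧
    (∃ t', (S.w (Sum.inl i) (Sum.inl j) 1)⁻¹ * S.x c d t * S.w (Sum.inl i) (Sum.inl j) 1 =
      S.x (sw (Sum.inl i) (Sum.inl j) c) (sw (Sum.inl i) (Sum.inl j) d) t') := by
  suffices H : CJ S (S.w (Sum.inl i) (Sum.inl j) 1) c d (sw (Sum.inl i) (Sum.inl j) c)
      (sw (Sum.inl i) (Sum.inl j) d) from H t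
  rcases h with ⟨hc, hd1, hd2⟩ | ⟨hd, hc1, hc2⟩
  · rw [sw_other i j d hd1 hd2]
    have hn1 : ab (ng d) ≠ i := by rw [ab_ng]; exact hd1
    have hn2 : ab (ng d) ≠ j := by rw [ab_ng]; exact hd2
    rcases c with k | k
    · rcases hc with hk | hk
      · obtain rfl : k = i := hk
        rw [sw_inl_i]
        exact base S k j hij d hd1 hd2 0 2 (by decide)
      · obtain rfl : k = j := hk
        rw [sw_inl_j]
        exact base S i k hij d hd1 hd2 1 2 (by decide)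
    · rcases hc with hk | hk
      · obtain rfl : k = i := hk
        rw [sw_inr_i]
        exact CJ_sym S _ _ _ _ _ (Ne.symm hd1) (Ne.symm hd2)
          (base S k j hij (ng d) hn1 hn2 2 0 (by decide))
      · obtain rfl : k = j := hk
        rw [sw_inr_j]
        exact CJ_sym S _ _ _ _ _ (Ne.symm hd2) (Ne.symm hd1)
          (base S i k hij (ng d) hn1 hn2 2 1 (by decide))
  · rw [sw_other i j c hc1 hc2]
    have hn1 : ab (ng c) ≠ i := by rw [ab_ng]; exact hc1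
    have hn2 : ab (ng c) ≠ j := by rw [ab_ng]; exact hc2
    rcases d with k | k
    · rcases hd with hk | hk
      · obtain rfl : k = i := hk
        rw [sw_inl_i]
        exact base S k j hij c hc1 hc2 2 0 (by decide)
      · obtain rfl : k = j := hk
        rw [sw_inl_j]
        exact base S i k hij c hc1 hc2 2 1 (by decide)
    · rcases hd with hk | hk
      · obtain rfl : k = i := hk
        rw [sw_inr_i]
        exact CJ_sym S _ _ _ _ _ hc1 hc2 (base S k j hij (ng c) hn1 hn2 0 2 (by decide))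
      · obtain rfl : k = j := hk
        rw [sw_inr_j]
        exact CJ_sym S _ _ _ _ _ hc2 hc1 (base S i k hij (ng c) hn1 hn2 1 2 (by decide))

end Cfsg.Agent.Lib.Helper36SpCwSt
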