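import Cfsg.Agent.Lib.Helper43SpDefs
import Cfsg.Agent.Lib.Helper84SpXval
import Cfsg.Agent.Lib.Helper36SpXbasic

set_option autoImplicit false

namespace Cfsg.Agent.Lib.Helper39SpTIIIa

open Matrix Cfsg.Agent.Lib.Helper43St Cfsg.Agent.Lib.Helper43Sp

variable {m : ℕ} {F : Type*} [Field F]

theorem X_add (a b : I m) (h : a ≠ b) (s t : F) : (X a b (s + t) : Sp m F) = X a b s * X a b t :=
  Helper36SpXbasic.X_add a b h s t Helper84SpXval.X_val

theorem X_inv (a b : I m) (t : F) : (X a b t : Sp m F)⁻¹ = X a b (-t) :=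
  Helper36SpXbasic.X_inv a b t Helper84SpXval.X_val

/-- scaling a root element by the powers of one torus element -/
theorem full_of_scale (K : Subgroup (Sp m F)) (ζ : Fˣ) (hζ : ∀ u : Fˣ, u ∈ Subgroup.zpowers ζ)
    (g : Sp m F) (hg : g ∈ K) (a b : I m)
    (hc : ∀ t : F, g * X a b t * g⁻¹ = X a b ((ζ : F) * t))
    (t0 : F) (h0 : t0 ≠ 0) (h : X a b t0 ∈ K) : Full K a b := by
  let S : Subgroup Fˣ :=
    { carrier := {u | ∀ t : F, X a b t ∈ K ↔ X a b ((u : F) * t) ∈ K}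
      one_mem' := by intro t; simp
      mul_mem' := by
        intro u v hu hv t
        rw [hv t, hu _, Units.val_mul, mul_assoc]
      inv_mem' := by
        intro u hu t
        rw [hu (((u⁻¹ : Fˣ) : F) * t), ← mul_assoc, ← Units.val_mul, mul_inv_cancel, Units.val_one,
          one_mul] }
  have hS : ζ ∈ S := by
    intro t
    rw [← hc t]
    constructor
    · intro ht
      exact K.mul_mem (K.mul_mem hg ht) (K.inv_mem hg)
    · intro ht
      have := K.mul_mem (K.mul_mem (K.inv_mem hg) ht) hg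
      simpa [mul_assoc] using this
  have hall : ∀ u : Fˣ, u ∈ S := fun u => (Subgroup.zpowers_le.2 hS) (hζ u)
  intro t
  by_cases ht : t = 0
  · rw [ht, Helper36SpXbasic.X_zero]
    exact K.one_mem
  · have := (hall (Units.mk0 (t / t0) (div_ne_zero ht h0)) t0).1 h
    rwa [Units.val_mk0, div_mul_cancel₀ _ h0] at this

-- piece `tIIIa`
theorem caseIII_torus (K : Subgroup (Sp 2 F)) (ζ : Fˣ) (hζ : ∀ u : Fˣ, u ∈ Subgroup.zpowers ζ)
    (h1 : ζ ≠ 1) (hg : D (Pi.mulSingle 0 ζ) ∈ K)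
    (hb : cx 2 F * X (Sum.inl 0) (Sum.inl 1) 1 ∈ K)
    (D_mul : ∀ d d' : Fin 2 → Fˣ, (D (d * d') : Sp 2 F) = D d * D d')
    (D_one : (D (1 : Fin 2 → Fˣ) : Sp 2 F) = 1)
    (D_X : ∀ (d : Fin 2 → Fˣ) (a b : I 2) (_ : a ≠ b) (t : F),
      (D d : Sp 2 F) * X a b t * (D d)⁻¹ = X a b ((chi d a : F) * ((chi d b : Fˣ) : F)⁻¹ * t))
    (cx_X : ∀ (a b : I 2) (_ : a ≠ b),
      ∃ ε : F, ε ≠ 0 ∧ ∀ t, (cx 2 F : Sp 2 F) * X a b t * (cx 2 F)⁻¹ = X (gam a) (gam b) (ε * t))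
    (cx_D : ∀ d : Fin 2 → Fˣ,
      ∃ d' : Fin 2 → Fˣ, (cx 2 F : Sp 2 F) * D d * (cx 2 F)⁻¹ = D d' ∧
        ∀ a, chi d' (gam a) = chi d a) :
    ∀ d : Fin 2 → Fˣ, (D d : Sp 2 F) ∈ K := by
  set e1 : I 2 := Sum.inl 0 with he1
  set e2 : I 2 := Sum.inl 1 with he2
  set f1 : I 2 := Sum.inr 0 with hf1
  set d1 : Fin 2 → Fˣ := Pi.mulSingle 0 ζ with hd1
  set d2 : Fin 2 → Fˣ := Pi.mulSingle 1 ζ with hd2
  have h12 : e1 ≠ e2 := by simp [he1, he2]
  have h2f : e2 ≠ f1 := by simp [he2, hf1]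
  have hgam1 : gam e1 = e2 := by simp [he1, he2, gam]
  have hgam2 : gam e2 = f1 := by simp [hf1, he2, gam]
  obtain ⟨ε, hε, hcx⟩ := cx_X e1 e2 h12
  rw [hgam1, hgam2] at hcx
  obtain ⟨d', hd', hchi⟩ := cx_D d1
  have hd'2 : d' = d2 := by
    funext i
    fin_cases i
    · have := hchi e2
      rw [hgam2] at this
      simpa [chi, hf1, he2, hd1, hd2] using this
    · have := hchi e1
      rw [hgam1] at this
      simpa [chi, he1, he2, hd1, hd2] using this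
  rw [hd'2] at hd'
  -- v g1 v⁻¹
  have hv : X e1 e2 (1 : F) * D d1 * (X e1 e2 (1 : F))⁻¹ = X e1 e2 (1 - (ζ : F)) * D d1 := by
    have := D_X d1 e1 e2 h12 (-1)
    have hc : ((chi d1 e1 : Fˣ) : F) * ((chi d1 e2 : Fˣ) : F)⁻¹ * (-1) = -(ζ : F) := by
      simp [chi, he1, he2, hd1]
    rw [hc] at this
    rw [sub_eq_add_neg, X_add _ _ h12, ← this, X_inv]
    group
  set lam : F := ε * (1 - (ζ : F)) with hlam
  have hζ1 : (ζ : F) ≠ 1 := fun h => h1 (Units.ext h)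
  have hlam0 : lam ≠ 0 := mul_ne_zero hε (sub_ne_zero.2 (Ne.symm hζ1))
  have hg2 : X e2 f1 lam * D d2 ∈ K := by
    have hmem := K.mul_mem (K.mul_mem hb hg) (K.inv_mem hb)
    have heq : cx 2 F * X e1 e2 1 * D d1 * (cx 2 F * X e1 e2 1)⁻¹ = X e2 f1 lam * D d2 := by
      have e : cx 2 F * X e1 e2 1 * D d1 * (cx 2 F * X e1 e2 1)⁻¹
          = cx 2 F * (X e1 e2 (1 : F) * D d1 * (X e1 e2 (1 : F))⁻¹) * (cx 2 F)⁻¹ := by group
      rw [e, hv, ← hd', hlam, ← hcx]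
      group
    rwa [heq] at hmem
  -- the scaling by g1
  have hsc : ∀ t : F, D d1 * X e2 f1 t * (D d1)⁻¹ = X e2 f1 ((ζ : F) * t) := by
    intro t
    rw [D_X d1 e2 f1 h2f t]
    congr 2
    simp [chi, hf1, he2, hd1]
  have hDD : D d1 * D d2 = (D d2 * D d1 : Sp 2 F) := by
    rw [← D_mul, ← D_mul, mul_comm]
  have hcomm : X e2 f1 ((ζ : F) * lam - lam) ∈ K := by
    have hmem := K.mul_mem (K.mul_mem (K.mul_mem hg hg2) (K.inv_mem hg)) (K.inv_mem hg2)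
    have heq : D d1 * (X e2 f1 lam * D d2) * (D d1)⁻¹ * (X e2 f1 lam * D d2)⁻¹
        = X e2 f1 ((ζ : F) * lam - lam) := by
      have e : D d1 * (X e2 f1 lam * D d2) * (D d1)⁻¹ * (X e2 f1 lam * D d2)⁻¹
          = (D d1 * X e2 f1 lam * (D d1)⁻¹) * ((D d1 * D d2) * (D d1)⁻¹ * (D d2)⁻¹) *
            (X e2 f1 lam)⁻¹ := by group
      rw [e, hDD, hsc, sub_eq_add_neg, X_add _ _ h2f, X_inv]
      group
    rwa [heq] at hmem
  have hfull : Full K e2 f1 := by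
    refine full_of_scale K ζ hζ (D d1) hg e2 f1 hsc _ ?_ hcomm
    have : (ζ : F) * lam - lam = ((ζ : F) - 1) * lam := by ring
    rw [this]
    exact mul_ne_zero (sub_ne_zero.2 hζ1) hlam0
  have hg2' : D d2 ∈ K := by
    have := K.mul_mem (K.inv_mem (hfull lam)) hg2
    simpa using this
  -- all torus elements
  let Dh : (Fin 2 → Fˣ) →* Sp 2 F :=
    { toFun := D
      map_one' := D_one
      map_mul' := D_mul }
  have hsingle : ∀ (i : Fin 2), Pi.mulSingle i ζ ∈ K.comap Dh → ∀ u : Fˣ,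
      (Pi.mulSingle i u : Fin 2 → Fˣ) ∈ K.comap Dh := by
    intro i hi u
    obtain ⟨k, rfl⟩ := Subgroup.mem_zpowers_iff.1 (hζ u)
    have : (Pi.mulSingle i (ζ ^ k) : Fin 2 → Fˣ) = (Pi.mulSingle i ζ) ^ k :=
      map_zpow (MonoidHom.mulSingle (fun _ : Fin 2 => Fˣ) i) ζ k
    rw [this]
    exact Subgroup.zpow_mem _ hi k
  intro d
  have hd : d = Pi.mulSingle 0 (d 0) * Pi.mulSingle 1 (d 1) := by
    funext i
    fin_cases i <;> simp
  have h := (K.comap Dh).mul_mem (hsingle 0 hg (d 0)) (hsingle 1 hg2' (d 1))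
  rw [← hd] at h
  exact h

end Cfsg.Agent.Lib.Helper39SpTIIIa
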