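import Cfsg.Agent.Lib.Helper43SpDefs
import Cfsg.Agent.Lib.Helper84SpXval
import Cfsg.Agent.Lib.Helper84SpXcomm
import Cfsg.Agent.Lib.Helper36SpXbasic
import Cfsg.Agent.Lib.Helper39SpXs4
import Cfsg.Agent.Lib.Helper39SpTIIIa

set_option autoImplicit false

namespace Cfsg.Agent.Lib.Helper39SpTIIIb

open Matrix Cfsg.Agent.Lib.Helper43St Cfsg.Agent.Lib.Helper43Sp

variable {m : ℕ} {F : Type*} [Field F]

-- piece `tIIIb`
theorem caseIII_neg [Finite F] (K : Subgroup (Sp 2 F)) (hD : ∀ d : Fin 2 → Fˣ, (D d : Sp 2 F) ∈ K)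
    (μ : Fˣ) (hμ : μ ≠ 1) (hb : cx 2 F * X (Sum.inl 0) (Sum.inl 1) 1 ∈ K)
    (hy : Full K (Sum.inl 1) (Sum.inr 1))
    (D_X : ∀ (d : Fin 2 → Fˣ) (a b : I 2) (_ : a ≠ b) (t : F),
      (D d : Sp 2 F) * X a b t * (D d)⁻¹ = X a b ((chi d a : F) * ((chi d b : Fˣ) : F)⁻¹ * t))
    (cx_X : ∀ (a b : I 2) (_ : a ≠ b),
      ∃ ε : F, ε ≠ 0 ∧ ∀ t, (cx 2 F : Sp 2 F) * X a b t * (cx 2 F)⁻¹ = X (gam a) (gam b) (ε * t)) :
    Full K (Sum.inr 0) (Sum.inl 0) := by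
  set e1 : I 2 := Sum.inl 0 with he1
  set e2 : I 2 := Sum.inl 1 with he2
  set f1 : I 2 := Sum.inr 0 with hf1
  set f2 : I 2 := Sum.inr 1 with hf2
  have hgam1 : gam e1 = e2 := by simp [he1, he2, gam]
  have hgam2 : gam e2 = f1 := by simp [hf1, he2, gam]
  have hgam3 : gam f1 = f2 := by simp [hf1, hf2, gam]
  have hgam4 : gam f2 = e1 := by simp [he1, hf2, gam]
  have hng1 : ng e1 = f1 := by simp [he1, hf1, ng]
  have hng2 : ng e2 = f2 := by simp [he2, hf2, ng]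
  have hng3 : ng f2 = e2 := by simp [he2, hf2, ng]
  have hab : ab e1 ≠ ab e2 := by simp [he1, he2, ab]
  obtain ⟨ε1, hε1, hcx1⟩ := cx_X e1 f2 (by simp [he1, hf2])
  obtain ⟨ε2, hε2, hcx2⟩ := cx_X e1 f1 (by simp [he1, hf1])
  obtain ⟨ε3, hε3, hcx3⟩ := cx_X e2 f2 (by simp [he2, hf2])
  rw [hgam1, hgam4] at hcx1
  rw [hgam1, hgam3] at hcx2
  rw [hgam2, hgam4] at hcx3
  have hs4 : ∀ t : F, X e1 e2 (1 : F) * X e2 f2 t * (X e1 e2 (1 : F))⁻¹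
      = X e1 f2 t * X e1 f1 t * X e2 f2 t := by
    intro t
    have := Helper39SpXs4.X_s4 e1 e2 hab (1 : F) t Helper84SpXval.X_val Helper39SpTIIIa.X_inv
    rw [hng1, hng2] at this
    rw [this]
    simp [sg, he1, he2]
  have hconj : ∀ t : F, X e2 e1 (ε1 * t) * X e2 f2 (ε2 * t) * X f1 e1 (ε3 * t) ∈ K := by
    intro t
    have hmem := K.mul_mem (K.mul_mem hb (hy t)) (K.inv_mem hb)
    have heq : cx 2 F * X e1 e2 1 * X e2 f2 t * (cx 2 F * X e1 e2 1)⁻¹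
        = X e2 e1 (ε1 * t) * X e2 f2 (ε2 * t) * X f1 e1 (ε3 * t) := by
      have e : cx 2 F * X e1 e2 1 * X e2 f2 t * (cx 2 F * X e1 e2 1)⁻¹
          = cx 2 F * (X e1 e2 (1 : F) * X e2 f2 t * (X e1 e2 (1 : F))⁻¹) * (cx 2 F)⁻¹ := by group
      rw [e, hs4, ← hcx1, ← hcx2, ← hcx3]
      group
    rwa [heq] at hmem
  have hw : ∀ t : F, X e2 e1 (ε1 * t) * X f1 e1 (ε3 * t) ∈ K := by
    intro t
    have hc : Commute (X e2 e1 (ε1 * t) : Sp 2 F) (X e2 f2 (ε2 * t)) :=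
      Helper84SpXcomm.X_comm e2 e1 e2 f2 (by simp [he1, he2]) (by simp [he2, hf2])
        (by simp [he1, he2]) (by simp [he2, hf2]) (by rw [hng3]; simp [he1, he2])
        (by rw [hng2]; simp [he2, hf2]) _ _
    have := K.mul_mem (K.inv_mem (hy (ε2 * t))) (hconj t)
    rw [hc.eq] at this
    simpa [mul_assoc] using this
  have h21 : e2 ≠ e1 := by simp [he1, he2]
  have hf1e1 : f1 ≠ e1 := by simp [he1, hf1]
  have hsc : ∀ (u : Fˣ) (t : F), D (Pi.mulSingle 1 u) * X e2 e1 t * (D (Pi.mulSingle 1 u))⁻¹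
      = (X e2 e1 ((u : F) * t) : Sp 2 F) := by
    intro u t
    rw [D_X _ e2 e1 h21 t]
    congr 2
    simp [chi, he1, he2]
  have hsc' : ∀ (u : Fˣ) (t : F), D (Pi.mulSingle 1 u) * X f1 e1 t * (D (Pi.mulSingle 1 u))⁻¹
      = (X f1 e1 t : Sp 2 F) := by
    intro u t
    rw [D_X _ f1 e1 hf1e1 t]
    congr 1
    simp [chi, he1, hf1]
  have hμ1 : (μ : F) ≠ 1 := fun h => hμ (Units.ext h)
  have hone : X e2 e1 ((μ : F) * (ε1 * 1) - ε1 * 1) ∈ K := by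
    have hη := hD (Pi.mulSingle 1 μ)
    have hmem := K.mul_mem (K.mul_mem (K.mul_mem hη (hw 1)) (K.inv_mem hη)) (K.inv_mem (hw 1))
    have heq : D (Pi.mulSingle 1 μ) * (X e2 e1 (ε1 * 1) * X f1 e1 (ε3 * 1)) *
        (D (Pi.mulSingle 1 μ))⁻¹ * (X e2 e1 (ε1 * 1) * X f1 e1 (ε3 * 1))⁻¹
        = (X e2 e1 ((μ : F) * (ε1 * 1) - ε1 * 1) : Sp 2 F) := by
      have e : D (Pi.mulSingle 1 μ) * (X e2 e1 (ε1 * 1) * X f1 e1 (ε3 * 1)) *
          (D (Pi.mulSingle 1 μ))⁻¹ * (X e2 e1 (ε1 * 1) * X f1 e1 (ε3 * 1))⁻¹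
          = (D (Pi.mulSingle 1 μ) * X e2 e1 (ε1 * 1) * (D (Pi.mulSingle 1 μ))⁻¹) *
            (D (Pi.mulSingle 1 μ) * X f1 e1 (ε3 * 1) * (D (Pi.mulSingle 1 μ))⁻¹) *
            (X f1 e1 (ε3 * 1))⁻¹ * (X e2 e1 (ε1 * 1) : Sp 2 F)⁻¹ := by group
      rw [e, hsc, hsc', sub_eq_add_neg, Helper39SpTIIIa.X_add _ _ h21, Helper39SpTIIIa.X_inv e2 e1]
      group
    rwa [heq] at hmem
  have ht0 : (μ : F) * (ε1 * 1) - ε1 * 1 ≠ 0 := by
    have : (μ : F) * (ε1 * 1) - ε1 * 1 = ((μ : F) - 1) * ε1 := by ring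
    rw [this]
    exact mul_ne_zero (sub_ne_zero.2 hμ1) hε1
  have hfull : Full K e2 e1 := by
    intro t
    by_cases ht : t = 0
    · rw [ht, Helper36SpXbasic.X_zero]
      exact K.one_mem
    · have hη := hD (Pi.mulSingle 1 (Units.mk0 (t / _) (div_ne_zero ht ht0)))
      have := K.mul_mem (K.mul_mem hη hone) (K.inv_mem hη)
      rwa [hsc, Units.val_mk0, div_mul_cancel₀ _ ht0] at this
  intro t
  have := K.mul_mem (K.inv_mem (hfull (ε1 * (ε3⁻¹ * t)))) (hw (ε3⁻¹ * t))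
  rw [inv_mul_cancel_left, ← mul_assoc, mul_inv_cancel₀ hε3, one_mul] at this
  exact this

end Cfsg.Agent.Lib.Helper39SpTIIIb
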