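import Cfsg.Agent.Lib.Helper43SpDefs
import Cfsg.Agent.Lib.Helper7Sp
import Cfsg.Agent.S0765

set_option autoImplicit false
set_option linter.unusedSimpArgs false

/-! Project 243, piece `spgen`. -/

namespace Cfsg.Agent.Lib.Helper52SpSpgen

open Matrix Cfsg.Agent.Lib.Helper43St Cfsg.Agent.Lib.Helper43Sp

variable {m : ℕ} {F : Type*} [Field F]

theorem ng_ne (a : I m) : ng a ≠ a := by
  cases a <;> simp [ng]

theorem ng_ng (a : I m) : ng (ng a) = a := by
  cases a <;> rfl

/-- action of a long root matrix -/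
theorem Xm_long_mulVec (a : I m) (t : F) (w : I m → F) (d : I m) :
    (Xm a (ng a) t *ᵥ w) d = w d + if d = a then t * w (ng a) else 0 := by
  unfold Xm
  rw [if_pos rfl, add_mulVec, one_mulVec, single_mulVec_eq]
  simp [Pi.single_apply]

/-- action of a short root matrix -/
theorem Xm_short_mulVec (a b : I m) (h : b ≠ ng a) (t : F) (w : I m → F) (d : I m) :
    (Xm a b t *ᵥ w) d = w d + (if d = a then t * w b else 0) -
      (if d = ng b then sg F a * sg F b * t * w (ng a) else 0) := by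
  unfold Xm
  rw [if_neg h, sub_mulVec, add_mulVec, one_mulVec, single_mulVec_eq, single_mulVec_eq]
  simp [Pi.single_apply]

/-- the subgroup generated by the root elements -/
def EE (m : ℕ) (F : Type*) [Field F] : Subgroup (Sp m F) :=
  Subgroup.closure {g : Sp m F | ∃ a b t, a ≠ b ∧ g = X a b t}

theorem X_mem (a b : I m) (h : a ≠ b) (t : F) : X a b t ∈ EE m F :=
  Subgroup.subset_closure ⟨a, b, t, h, rfl⟩

theorem clear
    (X_val : ∀ (a b : I m), a ≠ b → ∀ t : F,
      ((X a b t : Sp m F) : Matrix (I m) (I m) F) = Xm a b t)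
    (p : I m) (S : Finset (I m)) : (∀ c ∈ S, c ≠ p ∧ c ≠ ng p) → ∀ w : I m → F, w p ≠ 0 →
    ∃ k ∈ EE m F, ((k : Matrix (I m) (I m) F) *ᵥ w) p = w p ∧
      (∀ c ∈ S, ((k : Matrix (I m) (I m) F) *ᵥ w) c = 0) ∧
      (∀ c, c ∉ S → c ≠ ng p → ((k : Matrix (I m) (I m) F) *ᵥ w) c = w c) := by
  classical
  induction S using Finset.induction_on with
  | empty =>
    intro _ w _
    refine ⟨1, one_mem _, ?_, ?_, ?_⟩
    · simp
    · intro c hc; simp at hc
    · intro c _ _; simp
  | insert c S hcS ih =>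
    intro hS w hw
    obtain ⟨k, hk, h1, h2, h3⟩ := ih (fun d hd => hS d (Finset.mem_insert_of_mem hd)) w hw
    obtain ⟨hcp, hcnp⟩ := hS c (Finset.mem_insert_self c S)
    set w' := (k : Matrix (I m) (I m) F) *ᵥ w with hw'
    have hw'p : w' p ≠ 0 := by rw [h1]; exact hw
    have hpc : p ≠ ng c := by
      intro e
      apply hcnp
      rw [e, ng_ng]
    have hact : ∀ d, (((X c p (-(w' c) / w' p) * k : Sp m F) : Matrix (I m) (I m) F) *ᵥ w) d =
        w' d + (if d = c then (-(w' c) / w' p) * w' p else 0) -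
          (if d = ng p then sg F c * sg F p * (-(w' c) / w' p) * w' (ng c) else 0) := by
      intro d
      rw [Cfsg.Agent.Lib.Helper17Symp2.coe_mul_mulVec, X_val c p hcp, ← hw',
        Xm_short_mulVec c p hpc]
    refine ⟨X c p (-(w' c) / w' p) * k, mul_mem (X_mem c p hcp _) hk, ?_, ?_, ?_⟩
    · rw [hact, if_neg (Ne.symm hcp), if_neg (ng_ne p).symm, h1]
      ring
    · intro d hd
      rw [hact]
      rcases Finset.mem_insert.1 hd with rfl | hd
      · rw [if_pos rfl, if_neg hcnp]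
        field_simp
        ring
      · have hdc : d ≠ c := fun e => hcS (e ▸ hd)
        rw [if_neg hdc, if_neg (hS d (Finset.mem_insert_of_mem hd)).2, h2 d hd]
        ring
    · intro d hd hdp
      rw [hact]
      have hdc : d ≠ c := fun e => hd (e ▸ Finset.mem_insert_self c S)
      have hdS : d ∉ S := fun e => hd (Finset.mem_insert_of_mem e)
      rw [if_neg hdc, if_neg hdp, h3 d hdS hdp]
      ring

theorem good
    (X_val : ∀ (a b : I m), a ≠ b → ∀ t : F,
      ((X a b t : Sp m F) : Matrix (I m) (I m) F) = Xm a b t)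
    (w : I m → F) (hw : w ≠ 0) :
    ∃ k ∈ EE m F, ∃ (p : I m) (a : F), (k : Matrix (I m) (I m) F) *ᵥ w = a • Pi.single p 1 := by
  classical
  obtain ⟨p, hp⟩ : ∃ p, w p ≠ 0 := by
    by_contra hcon
    push Not at hcon
    exact hw (funext hcon)
  obtain ⟨k, hk, h1, h2, -⟩ := clear X_val p (Finset.univ.filter fun c => c ≠ p ∧ c ≠ ng p)
    (fun c hc => (Finset.mem_filter.1 hc).2) w hp
  set w' := (k : Matrix (I m) (I m) F) *ᵥ w with hw'
  have hw'p : w' p ≠ 0 := by rw [h1]; exact hp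
  have hact : ∀ d, (((X (ng p) p (-(w' (ng p)) / w' p) * k : Sp m F) :
      Matrix (I m) (I m) F) *ᵥ w) d =
      w' d + (if d = ng p then (-(w' (ng p)) / w' p) * w' p else 0) := by
    intro d
    rw [Cfsg.Agent.Lib.Helper17Symp2.coe_mul_mulVec, X_val (ng p) p (ng_ne p), ← hw']
    have := Xm_long_mulVec (ng p) (-(w' (ng p)) / w' p) w' d
    rwa [ng_ng] at this
  refine ⟨X (ng p) p (-(w' (ng p)) / w' p) * k, mul_mem (X_mem _ _ (ng_ne p) _) hk, p, w p, ?_⟩
  funext d
  rw [hact]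
  by_cases hdp : d = p
  · subst hdp
    rw [if_neg (ng_ne d).symm, h1]
    simp
  · by_cases hdn : d = ng p
    · subst hdn
      rw [if_pos rfl]
      simp only [Pi.smul_apply, Pi.single_apply, if_neg hdp, smul_zero]
      field_simp
      ring
    · rw [if_neg hdn, h2 d (Finset.mem_filter.2 ⟨Finset.mem_univ _, hdp, hdn⟩)]
      simp [Pi.single_apply, hdp]

theorem tv_single
    (X_val : ∀ (a b : I m), a ≠ b → ∀ t : F,
      ((X a b t : Sp m F) : Matrix (I m) (I m) F) = Xm a b t)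
    (p : I m) (c : F) :
    Cfsg.Agent.Lib.Helper17Symp2.tv m (Pi.single p 1) c = X p (ng p) (sg F p * c) := by
  apply Cfsg.Agent.Lib.Helper7Sp.ext_mulVec
  intro x
  rw [Cfsg.Agent.Lib.Helper17Symp2.tv_mulVec, X_val p (ng p) (ng_ne p).symm]
  funext d
  rw [Xm_long_mulVec]
  rcases p with i | i
  · rw [Cfsg.Agent.Lib.Helper17Symp.sympForm_single_inl]
    by_cases hd : d = Sum.inl i
    · subst hd
      simp [sg, ng]
    · simp [hd, Pi.single_apply]
  · rw [Cfsg.Agent.Lib.Helper17Symp.sympForm_single_inr]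
    by_cases hd : d = Sum.inr i
    · subst hd
      simp [sg, ng]
    · simp [hd, Pi.single_apply]

-- piece `spgen`
theorem sp_gen (m : ℕ) (F : Type*) [Field F]
    (X_val : ∀ (a b : I m), a ≠ b → ∀ t : F,
      ((X a b t : Sp m F) : Matrix (I m) (I m) F) = Xm a b t) :
    Subgroup.closure {g : Sp m F | ∃ a b t, a ≠ b ∧ g = X a b t} = ⊤ := by
  rw [eq_top_iff, ← Cfsg.Agent.S0765.result m, Subgroup.closure_le]
  rintro A ⟨w, c, hA⟩
  have hA' : A = Cfsg.Agent.Lib.Helper17Symp2.tv m w c := Subtype.ext hA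
  show A ∈ EE m F
  rw [hA']
  by_cases hw : w = 0
  · rw [hw, Cfsg.Agent.Lib.Helper7Sp.tv_zero_left]
    exact one_mem _
  · obtain ⟨k, hk, p, a, hka⟩ := good X_val w hw
    have h1 := Cfsg.Agent.Lib.Helper7Sp.conj_tv k w c
    rw [hka, Cfsg.Agent.Lib.Helper7Sp.tv_smul, tv_single X_val] at h1
    have h2 : Cfsg.Agent.Lib.Helper17Symp2.tv m w c =
        k⁻¹ * X p (ng p) (sg F p * (a ^ 2 * c)) * k := by rw [← h1]; group
    rw [h2]
    exact mul_mem (mul_mem (inv_mem hk) (X_mem _ _ (ng_ne p).symm _)) hk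

end Cfsg.Agent.Lib.Helper52SpSpgen
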