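import Cfsg.Agent.Lib.Helper43SpDefs
import Cfsg.Agent.Lib.Helper36SpXbasic
import Cfsg.Agent.Lib.Helper84SpXval
import Cfsg.Agent.Lib.Helper65Sptcoprime

set_option autoImplicit false

/-! Project 243, piece `tIIId` (pieces not yet landed are extra hypotheses at the end). -/

namespace Cfsg.Agent.Lib.Helper5SptIIId

open Matrix Cfsg.Agent.Lib.Helper43St Cfsg.Agent.Lib.Helper43Sp

variable {F : Type*} [Field F]

-- piece `tIIId`
theorem caseIII [Fintype F] (h3 : 3 ≤ Fintype.card F)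
    (D_pow : ∀ (d : Fin 2 → Fˣ) (k : ℕ), (D d : Sp 2 F) ^ k = D (d ^ k))
    (D_one : (D (1 : Fin 2 → Fˣ) : Sp 2 F) = 1)
    (D_X : ∀ (d : Fin 2 → Fˣ) (a b : I 2), a ≠ b → ∀ t : F,
      (D d : Sp 2 F) * X a b t * (D d)⁻¹ = X a b ((chi d a : F) * ((chi d b : Fˣ) : F)⁻¹ * t))
    (short_all : ∀ (K : Subgroup (Sp 2 F)), cx 2 F ∈ K → ∀ a : I 2,
      Full K a (gam a) → ∀ b c : I 2, ab b ≠ ab c → Full K b c)
    (long_all : ∀ (K : Subgroup (Sp 2 F)), cx 2 F ∈ K → ∀ a : I 2,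
      Full K a (ng a) → ∀ b : I 2, Full K b (ng b))
    (top_of_full : ∀ (K : Subgroup (Sp 2 F)), (∀ b c : I 2, ab b ≠ ab c → Full K b c) →
      (∀ b : I 2, Full K b (ng b)) → K = ⊤)
    (full_long_of_one : ∀ (K : Subgroup (Sp 2 F)), (∀ d : Fin 2 → Fˣ, (D d : Sp 2 F) ∈ K) →
      ∀ (a : I 2) (t0 : F), t0 ≠ 0 → X a (ng a) t0 ∈ K → Full K a (ng a))
    (caseIII_torus : ∀ (K : Subgroup (Sp 2 F)) (ζ : Fˣ), (∀ u : Fˣ, u ∈ Subgroup.zpowers ζ) →
      ζ ≠ 1 → D (Pi.mulSingle 0 ζ) ∈ K → cx 2 F * X (Sum.inl 0) (Sum.inl 1) 1 ∈ K →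
      ∀ d : Fin 2 → Fˣ, (D d : Sp 2 F) ∈ K)
    (caseIII_neg : ∀ (K : Subgroup (Sp 2 F)), (∀ d : Fin 2 → Fˣ, (D d : Sp 2 F) ∈ K) →
      ∀ μ : Fˣ, μ ≠ 1 → cx 2 F * X (Sum.inl 0) (Sum.inl 1) 1 ∈ K →
      Full K (Sum.inl 1) (Sum.inr 1) → Full K (Sum.inr 0) (Sum.inl 0))
    (caseIII_short : ∀ (K : Subgroup (Sp 2 F)), (∀ d : Fin 2 → Fˣ, (D d : Sp 2 F) ∈ K) →
      ∀ μ : Fˣ, μ ≠ 1 → cx 2 F * X (Sum.inl 0) (Sum.inl 1) 1 ∈ K →
      Full K (Sum.inr 0) (Sum.inl 0) → Full K (Sum.inl 0) (Sum.inl 1)) :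
    ∃ a b : Sp 2 F, Subgroup.closure ({a, b} : Set (Sp 2 F)) = ⊤ := by
  classical
  have X_val : ∀ (a b : I 2), a ≠ b → ∀ t : F,
      ((X a b t : Sp 2 F) : Matrix (I 2) (I 2) F) = Xm a b t :=
    fun a b h t => Cfsg.Agent.Lib.Helper84SpXval.X_val a b h t
  obtain ⟨ζ, hζ⟩ := IsCyclic.exists_generator (α := Fˣ)
  have hcardU : Fintype.card Fˣ = Fintype.card F - 1 := Fintype.card_units F
  have h1 : ζ ≠ 1 := by
    intro h
    have hsub : ∀ u : Fˣ, u = 1 := by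
      intro u
      have := hζ u
      rw [h, Subgroup.zpowers_one_eq_bot, Subgroup.mem_bot] at this
      exact this
    have : Fintype.card Fˣ ≤ 1 := Fintype.card_le_one_iff.mpr (fun a b => by rw [hsub a, hsub b])
    omega
  set g : Sp 2 F := D (Pi.mulSingle 0 ζ) with hg
  set h : Sp 2 F := X (Sum.inl 1) (Sum.inr 1) 1 with hh
  set b : Sp 2 F := cx 2 F * X (Sum.inl 0) (Sum.inl 1) 1 with hb
  refine ⟨g * h, b, ?_⟩
  set K : Subgroup (Sp 2 F) := Subgroup.closure ({g * h, b} : Set (Sp 2 F)) with hK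
  have haK : g * h ∈ K := Subgroup.subset_closure (by simp)
  have hbK : b ∈ K := Subgroup.subset_closure (by simp)
  -- `g` and `h` commute
  have hcomm : Commute g h := by
    have e := D_X (Pi.mulSingle 0 ζ) (Sum.inl 1) (Sum.inr 1) (by simp) 1
    have e1 : (chi (Pi.mulSingle (0 : Fin 2) ζ) (Sum.inl 1) : Fˣ) = 1 := by
      simp [chi, Pi.mulSingle_apply]
    have e2 : (chi (Pi.mulSingle (0 : Fin 2) ζ) (Sum.inr 1) : Fˣ) = 1 := by
      simp [chi, Pi.mulSingle_apply]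
    rw [e1, e2] at e
    simp only [Units.val_one, inv_one, mul_one] at e
    exact mul_inv_eq_iff_eq_mul.mp e
  -- orders
  obtain ⟨p, hp⟩ := CharP.exists F
  have := hp
  obtain ⟨n, hpp, hn⟩ := FiniteField.card F p
  have hgpow : g ^ (Fintype.card F - 1) = 1 := by
    rw [hg, D_pow, ← D_one]
    congr 1
    funext i
    rw [Pi.pow_apply, ← hcardU, pow_card_eq_one]
    rfl
  have hhpow : h ^ p = 1 := by
    rw [hh, Cfsg.Agent.Lib.Helper36SpXbasic.X_pow _ _ (by simp) _ _ X_val, CharP.cast_eq_zero,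
      zero_mul, Cfsg.Agent.Lib.Helper36SpXbasic.X_zero]
  have hcop : Nat.Coprime (Fintype.card F - 1) p := by
    rw [hn]
    have hpn : p ∣ p ^ (n : ℕ) := dvd_pow_self p n.ne_zero
    have hpos : 1 ≤ p ^ (n : ℕ) := Nat.one_le_pow _ _ hpp.pos
    rw [Nat.coprime_comm, Nat.Prime.coprime_iff_not_dvd hpp]
    intro hd
    have : p ∣ 1 := by
      have := (Nat.dvd_sub hpn hd)
      rwa [Nat.sub_sub_self hpos] at this
    exact hpp.one_lt.ne' (Nat.dvd_one.mp this)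
  obtain ⟨hgz, hhz⟩ := Cfsg.Agent.Lib.Helper65Sptcoprime.mem_zpowers_of_coprime g h hcomm _ _
    hgpow hhpow hcop
  have hzK : Subgroup.zpowers (g * h) ≤ K := by
    rw [Subgroup.zpowers_le]; exact haK
  have hgK : g ∈ K := hzK hgz
  have hhK : h ∈ K := hzK hhz
  have hD := caseIII_torus K ζ hζ h1 hgK hbK
  have hy : Full K (Sum.inl 1) (Sum.inr 1) :=
    full_long_of_one K hD (Sum.inl 1) 1 one_ne_zero hhK
  have hneg := caseIII_neg K hD ζ h1 hbK hy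
  have hsh := caseIII_short K hD ζ h1 hbK hneg
  have hc : cx 2 F ∈ K := by
    have : cx 2 F = b * (X (Sum.inl 0) (Sum.inl 1) 1)⁻¹ := by rw [hb]; group
    rw [this]
    exact K.mul_mem hbK (K.inv_mem (hsh 1))
  have hgam : (gam (Sum.inl 0 : I 2)) = Sum.inl 1 := by
    simp [gam]
  exact top_of_full K (short_all K hc (Sum.inl 0) (by rw [hgam]; exact hsh))
    (long_all K hc (Sum.inl 1) hy)

end Cfsg.Agent.Lib.Helper5SptIIId
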