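import Cfsg.Agent.Lib.Helper43SpDefs

set_option autoImplicit false

/-! Project 243, piece `tshort`. -/

namespace Cfsg.Agent.Lib.Helper52SpTshort

open Matrix Cfsg.Agent.Lib.Helper43St Cfsg.Agent.Lib.Helper43Sp

variable {m : ℕ} {F : Type*} [Field F]

theorem ng_ng (a : I m) : ng (ng a) = a := by
  cases a <;> rfl

theorem ab_ng (a : I m) : ab (ng a) = ab a := by
  cases a <;> rfl

-- piece `tshort`
theorem short_all (hm : 2 ≤ m) (K : Subgroup (Sp m F)) (hc : cx m F ∈ K) (a : I m)
    (h : Full K a (gam a))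
    (full_gam : ∀ (K : Subgroup (Sp m F)), cx m F ∈ K → ∀ a b : I m, a ≠ b →
      Full K a b → Full K (gam a) (gam b))
    (full_chain : ∀ (K : Subgroup (Sp m F)) (a b c : I m), ab a ≠ ab b → ab b ≠ ab c →
      ab a ≠ ab c → Full K a b → Full K b c → Full K a c)
    (full_sym : ∀ (K : Subgroup (Sp m F)) (a b : I m), ab a ≠ ab b → Full K a b →
      Full K (ng b) (ng a))
    (gam_pow_m : ∀ a : I m, gam^[m] a = ng a)
    (gam_trans : ∀ a b : I m, ∃ k, k < 2 * m ∧ gam^[k] a = b)
    (gam_ab : ∀ (a : I m) (k : ℕ), 0 < k → k < m → ab (gam^[k] a) ≠ ab a) :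
    ∀ b c : I m, ab b ≠ ab c → Full K b c := by
  have hne : ∀ x : I m, ab x ≠ ab (gam x) := fun x => (gam_ab x 1 (by omega) (by omega)).symm
  have hne' : ∀ x : I m, x ≠ gam x := fun x e => hne x (congrArg ab e)
  -- step 1
  have s1 : ∀ x : I m, Full K x (gam x) := by
    intro x
    obtain ⟨k, -, rfl⟩ := gam_trans a x
    induction k with
    | zero => exact h
    | succ k ih =>
      rw [Function.iterate_succ_apply']
      exact full_gam K hc _ _ (hne' _) ih
  -- step 2
  have s2 : ∀ l : ℕ, l + 1 < m → ∀ x : I m, Full K x (gam^[l + 1] x) := by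
    intro l
    induction l with
    | zero => intro _ x; exact s1 x
    | succ l ih =>
      intro hl x
      have h1 := ih (by omega) x
      have h2 := s1 (gam^[l + 1] x)
      rw [← Function.iterate_succ_apply' gam (l + 1) x] at h2
      refine full_chain K x (gam^[l + 1] x) (gam^[l + 1 + 1] x) ?_ ?_ ?_ h1 h2
      · exact (gam_ab x (l + 1) (by omega) (by omega)).symm
      · rw [Function.iterate_succ_apply' gam (l + 1) x]
        exact hne _
      · exact (gam_ab x (l + 1 + 1) (by omega) hl).symm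
  intro b c hbc
  obtain ⟨l, hl, rfl⟩ := gam_trans b c
  have hl0 : l ≠ 0 := by
    rintro rfl
    exact hbc rfl
  have hlm : l ≠ m := by
    rintro rfl
    rw [gam_pow_m, ab_ng] at hbc
    exact hbc rfl
  rcases Nat.lt_or_ge l m with hlt | hge
  · obtain ⟨l', rfl⟩ : ∃ l', l = l' + 1 := ⟨l - 1, by omega⟩
    exact s2 l' hlt b
  · -- use the symmetry
    obtain ⟨l', hl'⟩ : ∃ l', 2 * m - l = l' + 1 := ⟨2 * m - l - 1, by omega⟩
    have h1 := s2 l' (by omega) (ng (gam^[l] b))
    have e : gam^[l' + 1] (ng (gam^[l] b)) = ng b := by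
      rw [← gam_pow_m, ← Function.iterate_add_apply, ← Function.iterate_add_apply]
      have : l' + 1 + m + l = m + (m + m) := by omega
      rw [this, Function.iterate_add_apply, Function.iterate_add_apply, gam_pow_m, gam_pow_m,
        gam_pow_m, ng_ng]
    rw [e] at h1
    have h2 := full_sym K _ _ (by rw [ab_ng, ab_ng]; exact hbc.symm) h1
    rwa [ng_ng, ng_ng] at h2

end Cfsg.Agent.Lib.Helper52SpTshort
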