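import Cfsg.Agent.Lib.Helper43SpDefs
import Cfsg.Agent.Lib.Helper65SpAPI

set_option autoImplicit false

/-! Project 243, piece `tfull` (`full_gam`: the unlanded piece `cxx` is the extra hypothesis `cx_X`). -/

namespace Cfsg.Agent.Lib.Helper65Sptfull

open Matrix Cfsg.Agent.Lib.Helper43St Cfsg.Agent.Lib.Helper43Sp
open Cfsg.Agent.Lib.Helper65SpAPI

variable {m : ℕ} {F : Type*} [Field F]

theorem full_gam (K : Subgroup (Sp m F)) (hc : cx m F ∈ K) (a b : I m) (hab : a ≠ b)
    (h : Full K a b)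
    (cx_X : ∀ (a b : I m), a ≠ b → ∃ ε : F, ε ≠ 0 ∧
      ∀ t, (cx m F : Sp m F) * X a b t * (cx m F)⁻¹ = X (gam a) (gam b) (ε * t)) : Full K (gam a) (gam b) := by
  obtain ⟨ε, hε, hX⟩ := cx_X a b hab
  intro t
  have h1 := hX (ε⁻¹ * t)
  rw [mul_inv_cancel_left₀ hε] at h1
  rw [← h1]
  exact K.mul_mem (K.mul_mem hc (h _)) (K.inv_mem hc)

theorem full_chain (K : Subgroup (Sp m F)) (a b c : I m) (hab : ab a ≠ ab b) (hbc : ab b ≠ ab c)
    (hac : ab a ≠ ab c) (h1 : Full K a b) (h2 : Full K b c) : Full K a c := by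
  intro t
  have h := X_chain (F := F) a b c hab hbc hac 1 t
  rw [one_mul] at h
  rw [← h]
  exact K.mul_mem (K.mul_mem (K.mul_mem (h1 _) (h2 _)) (K.inv_mem (h1 _))) (K.inv_mem (h2 _))

theorem sg_mul_self (a : I m) : sg F a * sg F a = 1 := by
  rcases a with i | i <;> simp [sg]

theorem full_sym (K : Subgroup (Sp m F)) (a b : I m) (hab : ab a ≠ ab b) (h : Full K a b) :
    Full K (ng b) (ng a) := by
  intro t
  have h1 := X_sym (F := F) a b hab (-(sg F a * sg F b * t))
  have e : -(sg F a * sg F b * -(sg F a * sg F b * t)) = t := by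
    have ha := sg_mul_self (F := F) a
    have hb := sg_mul_self (F := F) b
    calc -(sg F a * sg F b * -(sg F a * sg F b * t)) = (sg F a * sg F a) * (sg F b * sg F b) * t := by ring
      _ = t := by rw [ha, hb]; ring
  rw [e] at h1
  rw [← h1]
  exact h _

end Cfsg.Agent.Lib.Helper65Sptfull
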