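import Cfsg.Agent.Lib.Helper43SpDefs

set_option autoImplicit false

namespace Cfsg.Agent.Lib.Helper77SpTgam

open Matrix Cfsg.Agent.Lib.Helper43St Cfsg.Agent.Lib.Helper43Sp

variable {m : ℕ} {F : Type*} [Field F]

/-- position in the cycle `e_0, ..., e_{m-1}, f_0, ..., f_{m-1}` -/
def pos : I m → ℕ := Sum.elim (fun i => i.val) (fun i => m + i.val)

theorem pos_lt (a : I m) : pos a < 2 * m := by
  rcases a with i | i
  · have := i.2
    simp only [pos, Sum.elim_inl]; omega
  · have := i.2
    simp only [pos, Sum.elim_inr]; omega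

theorem pos_inj {a b : I m} (h : pos a = pos b) : a = b := by
  rcases a with i | i <;> rcases b with j | j
  · simp only [pos, Sum.elim_inl] at h
    exact congrArg _ (Fin.ext h)
  · have := i.2
    simp only [pos, Sum.elim_inl, Sum.elim_inr] at h; omega
  · have := j.2
    simp only [pos, Sum.elim_inl, Sum.elim_inr] at h; omega
  · simp only [pos, Sum.elim_inr] at h
    exact congrArg _ (Fin.ext (by omega))

theorem pos_gam (a : I m) : pos (gam a) = (pos a + 1) % (2 * m) := by
  rcases a with i | i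
  · have := i.2
    by_cases h : i.val + 1 < m
    · simp only [gam, dif_pos h, pos, Sum.elim_inl]
      rw [Nat.mod_eq_of_lt (by omega)]
    · simp only [gam, dif_neg h, pos, Sum.elim_inl, Sum.elim_inr]
      rw [Nat.mod_eq_of_lt (by omega)]; omega
  · have := i.2
    by_cases h : i.val + 1 < m
    · simp only [gam, dif_pos h, pos, Sum.elim_inr]
      rw [Nat.mod_eq_of_lt (by omega)]; omega
    · simp only [gam, dif_neg h, pos, Sum.elim_inl, Sum.elim_inr]
      have : m + i.val + 1 = 2 * m := by omega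
      rw [this, Nat.mod_self]

theorem pos_ng (a : I m) : pos (ng a) = (pos a + m) % (2 * m) := by
  rcases a with i | i
  · have := i.2
    simp only [ng, Sum.swap_inl, pos, Sum.elim_inl, Sum.elim_inr]
    rw [Nat.mod_eq_of_lt (by omega)]; omega
  · have := i.2
    simp only [ng, Sum.swap_inr, pos, Sum.elim_inl, Sum.elim_inr]
    have : m + i.val + m = i.val + 2 * m := by omega
    rw [this, Nat.add_mod_right, Nat.mod_eq_of_lt (by omega)]

theorem pos_iter (a : I m) (k : ℕ) : pos (gam^[k] a) = (pos a + k) % (2 * m) := by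
  induction k with
  | zero => simp [Nat.mod_eq_of_lt (pos_lt a)]
  | succ k ih =>
    rw [Function.iterate_succ_apply', pos_gam, ih, Nat.mod_add_mod, Nat.add_assoc]

theorem ab_val (a : I m) : (ab a).val = pos a % m := by
  rcases a with i | i
  · simp only [ab, Sum.elim_inl, id, pos]
    rw [Nat.mod_eq_of_lt i.2]
  · simp only [ab, Sum.elim_inr, id, pos]
    rw [Nat.add_mod_left, Nat.mod_eq_of_lt i.2]

theorem gam_ng (a : I m) : gam (ng a) = ng (gam a) := by
  apply pos_inj
  rw [pos_gam, pos_ng, pos_ng, pos_gam, Nat.mod_add_mod, Nat.mod_add_mod]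
  congr 1; omega

theorem gam_pow_m (a : I m) : gam^[m] a = ng a := by
  apply pos_inj
  rw [pos_iter, pos_ng]

theorem gam_trans (a b : I m) : ∃ k, k < 2 * m ∧ gam^[k] a = b := by
  have ha := pos_lt a
  have hb := pos_lt b
  refine ⟨(pos b + 2 * m - pos a) % (2 * m), Nat.mod_lt _ (by omega), ?_⟩
  apply pos_inj
  rw [pos_iter, Nat.add_mod_mod]
  have : pos a + (pos b + 2 * m - pos a) = pos b + 2 * m := by omega
  rw [this, Nat.add_mod_right, Nat.mod_eq_of_lt hb]

theorem gam_ab (a : I m) (k : ℕ) (h0 : 0 < k) (hk : k < m) : ab (gam^[k] a) ≠ ab a := by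
  intro h
  have h1 := congrArg Fin.val h
  rw [ab_val, ab_val, pos_iter, Nat.mod_mul_left_mod] at h1
  have h2 : (pos a + k) ≡ (pos a + 0) [MOD m] := h1
  have h3 : k ≡ 0 [MOD m] := Nat.ModEq.add_left_cancel' _ h2
  have h4 : k % m = 0 := h3
  rw [Nat.mod_eq_of_lt hk] at h4
  omega

end Cfsg.Agent.Lib.Helper77SpTgam
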