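import Cfsg.Agent.Lib.Helper43SpDefs
import Cfsg.Agent.Lib.Helper77SpTgam
import Cfsg.Agent.Lib.Helper65Sptfull

set_option autoImplicit false

/-! Project 243, piece `tlong` (the unlanded piece `cxx` is the extra hypothesis `cx_X`). -/

namespace Cfsg.Agent.Lib.Helper65Sptlong

open Matrix Cfsg.Agent.Lib.Helper43St Cfsg.Agent.Lib.Helper43Sp
open Cfsg.Agent.Lib.Helper65Sptfull
open Cfsg.Agent.Lib.Helper77SpTgam (gam_ng gam_trans)

variable {m : ℕ} {F : Type*} [Field F]

theorem ne_ng (a : I m) : a ≠ ng a := by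
  rcases a with i | i <;> simp [ng]

theorem long_all (K : Subgroup (Sp m F)) (hc : cx m F ∈ K) (a : I m)
    (h : Full K a (ng a))
    (cx_X : ∀ (a b : I m), a ≠ b → ∃ ε : F, ε ≠ 0 ∧
      ∀ t, (cx m F : Sp m F) * X a b t * (cx m F)⁻¹ = X (gam a) (gam b) (ε * t)) : ∀ b : I m, Full K b (ng b) := by
  have hk : ∀ k : ℕ, Full K (gam^[k] a) (ng (gam^[k] a)) := by
    intro k
    induction k with
    | zero => exact h
    | succ k ih =>
      rw [Function.iterate_succ_apply', ← gam_ng]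
      exact full_gam K hc _ _ (ne_ng _) ih cx_X
  intro b
  obtain ⟨k, -, rfl⟩ := gam_trans a b
  exact hk k

end Cfsg.Agent.Lib.Helper65Sptlong
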