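import Cfsg.Agent.Lib.Helper43SpDefs
import Cfsg.Agent.Lib.Helper65SpAPI

set_option autoImplicit false

/-! Project 243, pieces `tscale` and `tscalelong`. -/

namespace Cfsg.Agent.Lib.Helper65Sptscale

open Matrix Cfsg.Agent.Lib.Helper43St Cfsg.Agent.Lib.Helper43Sp
open Cfsg.Agent.Lib.Helper65SpAPI

variable {m : ℕ} {F : Type*} [Field F]

theorem chi_ng (d : Fin m → Fˣ) (a : I m) : chi d (ng a) = (chi d a)⁻¹ := by
  rcases a with i | i <;> simp [chi, ng]

theorem exists_chi (a : I m) (u : Fˣ) :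
    ∃ d : Fin m → Fˣ, chi d a = u ∧ ∀ b, ab b ≠ ab a → chi d b = 1 := by
  rcases a with i | i
  · refine ⟨Pi.mulSingle i u, by simp [chi], ?_⟩
    rintro (j | j) hj
    · have : j ≠ i := by simpa [ab] using hj
      simp [chi, Pi.mulSingle_eq_of_ne this]
    · have : j ≠ i := by simpa [ab] using hj
      simp [chi, Pi.mulSingle_eq_of_ne this]
  · refine ⟨Pi.mulSingle i u⁻¹, by simp [chi], ?_⟩
    rintro (j | j) hj
    · have : j ≠ i := by simpa [ab] using hj
      simp [chi, Pi.mulSingle_eq_of_ne this]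
    · have : j ≠ i := by simpa [ab] using hj
      simp [chi, Pi.mulSingle_eq_of_ne this]

theorem full_of_one (K : Subgroup (Sp m F)) (hD : ∀ d : Fin m → Fˣ, (D d : Sp m F) ∈ K)
    (a b : I m) (hab : ab a ≠ ab b) (t0 : F) (h0 : t0 ≠ 0) (h : X a b t0 ∈ K) : Full K a b := by
  intro t
  by_cases ht : t = 0
  · rw [ht, X_zero]; exact K.one_mem
  have hne : a ≠ b := fun e => hab (by rw [e])
  obtain ⟨d, hd1, hd2⟩ := exists_chi a (Units.mk0 (t / t0) (div_ne_zero ht h0))
  have h1 := D_X d a b hne t0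
  rw [hd1, hd2 b (Ne.symm hab)] at h1
  have e : ((Units.mk0 (t / t0) (div_ne_zero ht h0) : Fˣ) : F) * (((1 : Fˣ) : F))⁻¹ * t0 = t := by
    simp only [Units.val_mk0, Units.val_one, inv_one, mul_one]
    field_simp
  rw [e] at h1
  rw [← h1]
  exact K.mul_mem (K.mul_mem (hD d) h) (K.inv_mem (hD d))

theorem exists_sq_add_sq [Finite F] (x : F) : ∃ a b : F, a ^ 2 + b ^ 2 = x := by
  classical
  let _ := Fintype.ofFinite F
  by_cases h2 : ringChar F = 2
  · obtain ⟨a, ha⟩ := FiniteField.isSquare_of_char_two h2 x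
    exact ⟨a, 0, by rw [ha]; ring⟩
  · have hodd : Fintype.card F % 2 = 1 := FiniteField.odd_card_of_char_ne_two h2
    obtain ⟨a, b, hab⟩ := FiniteField.exists_root_sum_quadratic
      (f := (Polynomial.X ^ 2 : Polynomial F)) (g := Polynomial.X ^ 2 - Polynomial.C x)
      (Polynomial.degree_X_pow 2) (Polynomial.degree_X_pow_sub_C (by decide) _) hodd
    refine ⟨a, b, ?_⟩
    simp only [Polynomial.eval_pow, Polynomial.eval_X, Polynomial.eval_sub, Polynomial.eval_C] at hab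
    linear_combination hab

theorem ne_ng' (a : I m) : a ≠ ng a := by
  rcases a with i | i <;> simp [ng]

theorem full_long_of_one [Finite F] (K : Subgroup (Sp m F))
    (hD : ∀ d : Fin m → Fˣ, (D d : Sp m F) ∈ K)
    (a : I m) (t0 : F) (h0 : t0 ≠ 0) (h : X a (ng a) t0 ∈ K) : Full K a (ng a) := by
  have hsq : ∀ x : F, X a (ng a) (x ^ 2 * t0) ∈ K := by
    intro x
    by_cases hx : x = 0
    · rw [hx]
      simp only [ne_eq, OfNat.ofNat_ne_zero, not_false_eq_true, zero_pow, zero_mul]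
      rw [X_zero]; exact K.one_mem
    obtain ⟨d, hd1, -⟩ := exists_chi a (Units.mk0 x hx)
    have h1 := D_X d a (ng a) (ne_ng' a) t0
    rw [chi_ng, hd1] at h1
    have e : ((Units.mk0 x hx : Fˣ) : F) * ((((Units.mk0 x hx)⁻¹ : Fˣ) : F))⁻¹ * t0 = x ^ 2 * t0 := by
      simp only [Units.val_inv_eq_inv_val, Units.val_mk0, inv_inv]
      ring
    rw [e] at h1
    rw [← h1]
    exact K.mul_mem (K.mul_mem (hD d) h) (K.inv_mem (hD d))
  intro t
  obtain ⟨x, y, hxy⟩ := exists_sq_add_sq (t / t0)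
  have e : t = x ^ 2 * t0 + y ^ 2 * t0 := by
    rw [← add_mul, hxy]
    field_simp
  rw [e, X_add _ _ (ne_ng' a)]
  exact K.mul_mem (hsq x) (hsq y)

end Cfsg.Agent.Lib.Helper65Sptscale
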