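import Cfsg.Agent.Lib.Helper43SpDefs

set_option autoImplicit false

/-! Project 243, piece `ttop` (the unlanded piece `spgen` is the extra hypothesis `sp_gen`). -/

namespace Cfsg.Agent.Lib.Helper65Spttop

open Matrix Cfsg.Agent.Lib.Helper43St Cfsg.Agent.Lib.Helper43Sp

variable {m : ℕ} {F : Type*} [Field F]

theorem top_of_full (K : Subgroup (Sp m F)) (h1 : ∀ b c : I m, ab b ≠ ab c → Full K b c)
    (h2 : ∀ b : I m, Full K b (ng b))
    (sp_gen : Subgroup.closure {g : Sp m F | ∃ a b t, a ≠ b ∧ g = X a b t} = ⊤) : K = ⊤ := by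
  rw [eq_top_iff, ← sp_gen, Subgroup.closure_le]
  rintro _ ⟨a, b, t, hab, rfl⟩
  by_cases h : ab a = ab b
  · have hb : b = ng a := by
      rcases a with i | i <;> rcases b with j | j <;> simp_all [ab, ng]
    rw [hb]
    exact h2 a t
  · exact h1 a b h t

end Cfsg.Agent.Lib.Helper65Spttop
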