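import Cfsg.Agent.Lib.Helper43SpDefs
import Cfsg.Agent.Lib.Helper65SpAPI
import Cfsg.Agent.Lib.Helper77SpTgam
import Cfsg.Agent.Lib.Helper52SpTshort
import Cfsg.Agent.Lib.Helper65Sptcoprime
import Cfsg.Agent.Lib.Helper65Sptfull
import Cfsg.Agent.Lib.Helper65Sptlong
import Cfsg.Agent.Lib.Helper65Spttop
import Cfsg.Agent.Lib.Helper65Sptscale

set_option autoImplicit false

/-! Project 243, pieces `tIa` and `tIb` (the unlanded pieces `cxx`, `spgen`, `ttorus` are the extra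
hypotheses `cx_X`, `sp_gen`, `torus_all` at the end).  Also `short_all'` = `tshort` with only `cx_X` as hypothesis. -/

namespace Cfsg.Agent.Lib.Helper65SptI

open Matrix Cfsg.Agent.Lib.Helper43St Cfsg.Agent.Lib.Helper43Sp
open Cfsg.Agent.Lib.Helper65SpAPI
open Cfsg.Agent.Lib.Helper65Sptcoprime Cfsg.Agent.Lib.Helper65Sptfull Cfsg.Agent.Lib.Helper65Sptlong
  Cfsg.Agent.Lib.Helper65Spttop Cfsg.Agent.Lib.Helper65Sptscale

variable {m : ℕ} {F : Type*} [Field F]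

theorem short_all' (hm : 2 ≤ m) (K : Subgroup (Sp m F)) (hc : cx m F ∈ K) (a : I m)
    (h : Full K a (gam a))
    (cx_X : ∀ (a b : I m), a ≠ b → ∃ ε : F, ε ≠ 0 ∧
      ∀ t, (cx m F : Sp m F) * X a b t * (cx m F)⁻¹ = X (gam a) (gam b) (ε * t)) : ∀ b c : I m, ab b ≠ ab c → Full K b c :=
  Cfsg.Agent.Lib.Helper52SpTshort.short_all hm K hc a h
    (fun K hc a b hab h => full_gam K hc a b hab h cx_X) full_chain full_sym
    Cfsg.Agent.Lib.Helper77SpTgam.gam_pow_m Cfsg.Agent.Lib.Helper77SpTgam.gam_trans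
    Cfsg.Agent.Lib.Helper77SpTgam.gam_ab

theorem caseI_top [Finite F] (K : Subgroup (Sp (m + 3) F)) (hc : cx (m + 3) F ∈ K)
    (hD : ∀ d : Fin (m + 3) → Fˣ, (D d : Sp (m + 3) F) ∈ K) (μ : Fˣ) (hμ : μ ≠ 1)
    (hu : X (Sum.inl 0) (Sum.inl 1) (1 : F) * X (Sum.inl 0) (Sum.inr 0) 1 ∈ K)
    (cx_X : ∀ (a b : I (m + 3)), a ≠ b → ∃ ε : F, ε ≠ 0 ∧
      ∀ t, (cx (m + 3) F : Sp (m + 3) F) * X a b t * (cx (m + 3) F)⁻¹ = X (gam a) (gam b) (ε * t))
    (sp_gen : Subgroup.closure {g : Sp (m + 3) F | ∃ a b t, a ≠ b ∧ g = X a b t} = ⊤) : K = ⊤ := by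
  have h01 : (0 : Fin (m + 3)) ≠ 1 := by
    intro h
    have := congrArg Fin.val h
    simp at this
  have hne1 : (Sum.inl 0 : I (m + 3)) ≠ Sum.inl 1 := by
    intro h; exact h01 (Sum.inl.inj h)
  have hne2 : (Sum.inl 0 : I (m + 3)) ≠ Sum.inr 0 := by simp
  obtain ⟨η, hη⟩ : ∃ η : Fin (m + 3) → Fˣ, η = Pi.mulSingle 1 μ := ⟨_, rfl⟩
  have c0 : chi η (Sum.inl 0) = 1 := by
    rw [hη]; simp [chi, Pi.mulSingle_eq_of_ne h01]
  have c1 : chi η (Sum.inl 1) = μ := by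
    rw [hη]; simp [chi]
  have c0' : chi η (Sum.inr 0) = 1 := by
    rw [hη]; simp [chi, Pi.mulSingle_eq_of_ne h01]
  have e1 := D_X η (Sum.inl 0) (Sum.inl 1) hne1 (1 : F)
  have e2 := D_X η (Sum.inl 0) (Sum.inr 0) hne2 (1 : F)
  rw [c0, c1] at e1
  rw [c0, c0'] at e2
  simp only [Units.val_one, one_mul, mul_one, inv_one] at e1 e2
  -- conjugate of u
  have e3 : (D η : Sp (m + 3) F) * (X (Sum.inl 0) (Sum.inl 1) (1 : F) * X (Sum.inl 0) (Sum.inr 0) 1) * (D η)⁻¹ =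
      X (Sum.inl 0) (Sum.inl 1) ((μ : F)⁻¹) * X (Sum.inl 0) (Sum.inr 0) 1 := by
    have conj_mul : ∀ g x y : Sp (m + 3) F, g * (x * y) * g⁻¹ = (g * x * g⁻¹) * (g * y * g⁻¹) := by
      intros; group
    rw [conj_mul, e1, e2]
  have e4 : X (Sum.inl 0) (Sum.inl 1) ((μ : F)⁻¹ - 1) ∈ K := by
    have h1 : (D η : Sp (m + 3) F) * (X (Sum.inl 0) (Sum.inl 1) (1 : F) * X (Sum.inl 0) (Sum.inr 0) 1) * (D η)⁻¹ *
        (X (Sum.inl 0) (Sum.inl 1) (1 : F) * X (Sum.inl 0) (Sum.inr 0) 1)⁻¹ ∈ K :=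
      K.mul_mem (K.mul_mem (K.mul_mem (hD η) hu) (K.inv_mem (hD η))) (K.inv_mem hu)
    rw [e3] at h1
    have e5 : X (Sum.inl 0) (Sum.inl 1) ((μ : F)⁻¹) * X (Sum.inl 0) (Sum.inr 0) 1 *
        (X (Sum.inl 0) (Sum.inl 1) (1 : F) * X (Sum.inl 0) (Sum.inr 0) 1)⁻¹ =
        (X (Sum.inl 0) (Sum.inl 1) ((μ : F)⁻¹ - 1) : Sp (m + 3) F) := by
      rw [sub_eq_add_neg, X_add _ _ hne1, ← X_inv]
      group
    rwa [e5] at h1
  have hμ' : (μ : F)⁻¹ - 1 ≠ 0 := by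
    intro h
    apply hμ
    have h2 : (μ : F)⁻¹ = 1 := sub_eq_zero.mp h
    have h3 : (μ : F) = 1 := by rw [← inv_inv (μ : F), h2, inv_one]
    exact Units.ext h3
  have hab : ab (Sum.inl 0 : I (m + 3)) ≠ ab (Sum.inl 1 : I (m + 3)) := by simpa [ab] using h01
  have hF1 : Full K (Sum.inl 0) (Sum.inl 1) := full_of_one K hD _ _ hab _ hμ' e4
  have e6 : X (Sum.inl 0) (Sum.inr 0) (1 : F) ∈ K := by
    have := K.mul_mem (K.inv_mem (hF1 1)) hu
    rwa [inv_mul_cancel_left] at this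
  have hF2 : Full K (Sum.inl 0) (ng (Sum.inl 0)) :=
    full_long_of_one K hD (Sum.inl 0) 1 one_ne_zero e6
  have hg : gam (Sum.inl 0 : I (m + 3)) = Sum.inl 1 := by
    simp [gam]
  exact top_of_full K (short_all' (by omega) K hc (Sum.inl 0) (by rw [hg]; exact hF1) cx_X)
    (long_all K hc _ hF2 cx_X) sp_gen

theorem caseI [Fintype F] (h3 : 3 ≤ Fintype.card F)
    (cx_X : ∀ (a b : I (m + 3)), a ≠ b → ∃ ε : F, ε ≠ 0 ∧
      ∀ t, (cx (m + 3) F : Sp (m + 3) F) * X a b t * (cx (m + 3) F)⁻¹ = X (gam a) (gam b) (ε * t))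
    (sp_gen : Subgroup.closure {g : Sp (m + 3) F | ∃ a b t, a ≠ b ∧ g = X a b t} = ⊤)
    (torus_all : ∀ (K : Subgroup (Sp (m + 3) F)), cx (m + 3) F ∈ K → ∀ ζ : Fˣ,
      (∀ u : Fˣ, u ∈ Subgroup.zpowers ζ) → ∀ i0 : Fin (m + 3), D (Pi.mulSingle i0 ζ) ∈ K →
      ∀ d : Fin (m + 3) → Fˣ, (D d : Sp (m + 3) F) ∈ K) :
    ∃ a b : Sp (m + 3) F, Subgroup.closure ({a, b} : Set (Sp (m + 3) F)) = ⊤ := by
  classical
  obtain ⟨ζ, hζ⟩ := IsCyclic.exists_generator (α := Fˣ)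
  obtain ⟨p, hchar⟩ := CharP.exists F
  have hp : p.Prime := by
    rcases CharP.char_is_prime_or_zero F p with h | h
    · exact h
    · subst h
      exact absurd (CharP.charP_to_charZero F) (by
        intro h0
        exact not_finite F)
  have h01 : (0 : Fin (m + 3)) ≠ 1 := by
    intro h
    have := congrArg Fin.val h
    simp at this
  have h02 : (0 : Fin (m + 3)) ≠ 2 := by
    intro h
    have := congrArg Fin.val h
    simp at this
    rw [Nat.mod_eq_of_lt (by omega)] at this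
    omega
  have h12 : (1 : Fin (m + 3)) ≠ 2 := by
    intro h
    have := congrArg Fin.val h
    simp at this
    rw [Nat.mod_eq_of_lt (by omega)] at this
    omega
  have hne1 : (Sum.inl 0 : I (m + 3)) ≠ Sum.inl 1 := by
    intro h; exact h01 (Sum.inl.inj h)
  have hne2 : (Sum.inl 0 : I (m + 3)) ≠ Sum.inr 0 := by simp
  obtain ⟨η, hη⟩ : ∃ η : Fin (m + 3) → Fˣ, η = Pi.mulSingle 2 ζ := ⟨_, rfl⟩
  obtain ⟨u, hu⟩ : ∃ u : Sp (m + 3) F, u = X (Sum.inl 0) (Sum.inl 1) (1 : F) * X (Sum.inl 0) (Sum.inr 0) 1 :=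
    ⟨_, rfl⟩
  have c0 : chi η (Sum.inl 0) = 1 := by
    rw [hη]; simp [chi, Pi.mulSingle_eq_of_ne h02]
  have c1 : chi η (Sum.inl 1) = 1 := by
    rw [hη]; simp [chi, Pi.mulSingle_eq_of_ne h12]
  have c0' : chi η (Sum.inr 0) = 1 := by
    rw [hη]; simp [chi, Pi.mulSingle_eq_of_ne h02]
  have e1 := D_X η (Sum.inl 0) (Sum.inl 1) hne1 (1 : F)
  have e2 := D_X η (Sum.inl 0) (Sum.inr 0) hne2 (1 : F)
  rw [c0, c1] at e1
  rw [c0, c0'] at e2
  simp only [Units.val_one, one_mul, mul_one, inv_one] at e1 e2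
  have hcomm : Commute (D η : Sp (m + 3) F) u := by
    have e3 : (D η : Sp (m + 3) F) * u * (D η)⁻¹ = u := by
      have conj_mul : ∀ g x y : Sp (m + 3) F, g * (x * y) * g⁻¹ = (g * x * g⁻¹) * (g * y * g⁻¹) := by
        intros; group
      rw [hu, conj_mul, e1, e2]
    exact mul_inv_eq_iff_eq_mul.mp e3
  have hDpow : (D η : Sp (m + 3) F) ^ (Fintype.card F - 1) = 1 := by
    rw [D_pow]
    have : η ^ (Fintype.card F - 1) = 1 := by
      funext i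
      rw [Pi.pow_apply, ← Fintype.card_units, pow_card_eq_one]
      rfl
    rw [this, D_one]
  have hXX : Commute (X (Sum.inl 0) (Sum.inl 1) (1 : F) : Sp (m + 3) F) (X (Sum.inl 0) (Sum.inr 0) 1) :=
    X_comm _ _ _ _ hne1 hne2 (Ne.symm hne1) hne2 (by simpa [ng] using Ne.symm h01) (by simp [ng]) 1 1
  have hupow : u ^ p = 1 := by
    rw [hu, hXX.mul_pow, X_pow _ _ hne1, X_pow _ _ hne2, CharP.cast_eq_zero, zero_mul, X_zero, X_zero, one_mul]
  have hcop : Nat.Coprime (Fintype.card F - 1) p := by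
    have hdvd : p ∣ Fintype.card F := by
      rw [← CharP.cast_eq_zero_iff F p, Nat.cast_card_eq_zero]
    rw [Nat.coprime_comm, Nat.Prime.coprime_iff_not_dvd hp]
    intro h
    have h4 : p ∣ 1 := by
      have := Nat.dvd_sub hdvd h
      rwa [Nat.sub_sub_self (by omega)] at this
    exact hp.one_lt.ne' (Nat.dvd_one.mp h4)
  obtain ⟨hm1, hm2⟩ := mem_zpowers_of_coprime _ _ hcomm _ _ hDpow hupow hcop
  refine ⟨D η * u, cx (m + 3) F, ?_⟩
  set K := Subgroup.closure ({D η * u, cx (m + 3) F} : Set (Sp (m + 3) F)) with hK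
  have ha : D η * u ∈ K := Subgroup.subset_closure (by simp)
  have hc : cx (m + 3) F ∈ K := Subgroup.subset_closure (by simp)
  have hz : Subgroup.zpowers (D η * u) ≤ K := by
    rw [Subgroup.zpowers_le]; exact ha
  have hDK : ∀ d : Fin (m + 3) → Fˣ, (D d : Sp (m + 3) F) ∈ K :=
    torus_all K hc ζ hζ 2 (by rw [← hη]; exact hz hm1)
  have hζ1 : ζ ≠ 1 := by
    intro h1
    have hcard : Fintype.card Fˣ = 1 := by
      rw [Fintype.card_eq_one_iff]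
      refine ⟨1, fun y => ?_⟩
      have := hζ y
      rw [h1] at this
      simpa using this
    rw [Fintype.card_units] at hcard
    omega
  exact caseI_top K hc hDK ζ hζ1 (by rw [← hu]; exact hz hm2) cx_X sp_gen

end Cfsg.Agent.Lib.Helper65SptI
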