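import Cfsg.Agent.Lib.Helper43SpDefs
import Cfsg.Agent.Lib.Helper77SpTgam

set_option autoImplicit false

namespace Cfsg.Agent.Lib.Helper77SpCxval

open Matrix Cfsg.Agent.Lib.Helper43St Cfsg.Agent.Lib.Helper43Sp
open Cfsg.Agent.Lib.Helper77SpTgam

variable {m : ℕ} {F : Type*} [Field F]

theorem gam_inj : Function.Injective (gam : I m → I m) := by
  intro a b h
  apply pos_inj
  have h1 := congrArg pos h
  rw [pos_gam, pos_gam] at h1
  have ha := pos_lt a
  have hb := pos_lt b
  have h2 : (pos a + 1) ≡ (pos b + 1) [MOD (2 * m)] := h1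
  have h3 : pos a ≡ pos b [MOD (2 * m)] := Nat.ModEq.add_right_cancel' _ h2
  have h4 : pos a % (2 * m) = pos b % (2 * m) := h3
  rwa [Nat.mod_eq_of_lt ha, Nat.mod_eq_of_lt hb] at h4

theorem gam_surj : Function.Surjective (gam : I m → I m) :=
  Finite.surjective_of_injective gam_inj

theorem gam_eq_iff (a b : I m) : gam a = gam b ↔ a = b := gam_inj.eq_iff

/-- the sign in the Coxeter element -/
def sC (F : Type*) [Field F] (b : I m) : F := if rk b = m then -1 else 1

theorem sC_mul_self (b : I m) : sC F b * sC F b = 1 := by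
  unfold sC; split_ifs <;> simp

theorem sC_ne_zero (b : I m) : sC F b ≠ 0 := by
  intro h
  have := sC_mul_self (F := F) b
  rw [h] at this
  simp at this

theorem sg_mul_self (b : I m) : sg F b * sg F b = 1 := by
  rcases b with i | i <;> simp [sg]

theorem ng_ng (a : I m) : ng (ng a) = a := by
  rcases a with i | i <;> rfl

theorem ng_inj {a b : I m} (h : ng a = ng b) : a = b := by
  rw [← ng_ng a, h, ng_ng]

theorem ng_ne (a : I m) : ng a ≠ a := by
  rcases a with i | i <;> simp [ng]

theorem sg_ng (a : I m) : sg F (ng a) = - sg F a := by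
  rcases a with i | i <;> simp [sg, ng]

theorem sg_gam (b : I m) : sg F (gam b) = sC F b * sC F (ng b) * sg F b := by
  rcases b with i | i
  · have := i.2
    by_cases h : i.val + 1 < m
    · have h1 : ¬ (i.val = m) := by omega
      have h2 : ¬ (2 * m - 1 - i.val = m) := by omega
      simp [gam, dif_pos h, sg, sC, rk, ng, h1, h2]
    · have h1 : ¬ (i.val = m) := by omega
      have h2 : (2 * m - 1 - i.val = m) := by omega
      simp [gam, dif_neg h, sg, sC, rk, ng, h1, h2]
  · have := i.2
    by_cases h : i.val + 1 < m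
    · have h1 : ¬ (i.val = m) := by omega
      have h2 : ¬ (2 * m - 1 - i.val = m) := by omega
      simp [gam, dif_pos h, sg, sC, rk, ng, h1, h2]
    · have h1 : ¬ (i.val = m) := by omega
      have h2 : (2 * m - 1 - i.val = m) := by omega
      simp [gam, dif_neg h, sg, sC, rk, ng, h1, h2]

theorem Cm_apply (a b : I m) : Cm m F a b = if a = gam b then sC F b else 0 := rfl

theorem Cm_gam (a b : I m) : Cm m F (gam a) b = if a = b then sC F b else 0 := by
  rw [Cm_apply]
  simp only [gam_eq_iff]

theorem J_apply (a b : I m) : Matrix.J (Fin m) F a b = if b = ng a then - sg F a else 0 := by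
  rcases a with i | i <;> rcases b with j | j
  · simp [Matrix.J, ng]
  · by_cases h : i = j
    · subst h; simp [Matrix.J, ng, sg]
    · have h' : ¬ (j = i) := fun e => h e.symm
      simp [Matrix.J, ng, h, h']
  · by_cases h : i = j
    · subst h; simp [Matrix.J, ng, sg]
    · have h' : ¬ (j = i) := fun e => h e.symm
      simp [Matrix.J, ng, h, h']
  · simp [Matrix.J, ng]

theorem Cm_mem : Cm m F ∈ Matrix.symplecticGroup (Fin m) F := by
  rw [SymplecticGroup.mem_iff]
  ext a d
  obtain ⟨a, rfl⟩ := gam_surj a
  obtain ⟨d, rfl⟩ := gam_surj d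
  rw [Matrix.mul_apply]
  simp only [Matrix.mul_apply, Matrix.transpose_apply, Cm_gam, ite_mul, zero_mul, mul_ite, mul_zero,
    Finset.sum_ite_eq, Finset.mem_univ, if_true]
  rw [J_apply, J_apply, ← gam_ng]
  simp only [gam_eq_iff]
  by_cases h : d = ng a
  · subst h
    rw [if_pos rfl, if_pos rfl, sg_gam]
    ring
  · rw [if_neg h, if_neg h]
    simp

theorem cx_val : ((cx m F : Sp m F) : Matrix (I m) (I m) F) = Cm m F := by
  unfold cx
  rw [dif_pos Cm_mem]

/-- left multiplication of a matrix unit by the Coxeter matrix -/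
theorem Cm_mul_single (a b : I m) (t : F) :
    Cm m F * Matrix.single a b t = Matrix.single (gam a) b (sC F a * t) := by
  ext x y
  rw [Matrix.mul_apply]
  simp only [Matrix.single_apply, Cm_apply]
  rw [Finset.sum_eq_single a]
  · by_cases hx : x = gam a
    · subst hx
      by_cases hy : b = y
      · simp [hy]
      · simp [hy]
    · have hx' : ¬ (gam a = x) := fun h => hx h.symm
      simp [hx, hx']
  · intro z _ hz
    have : ¬ (a = z) := fun h => hz h.symm
    simp [this]
  · intro h; exact absurd (Finset.mem_univ _) h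

/-- right multiplication of a matrix unit by the Coxeter matrix -/
theorem single_mul_Cm (a b : I m) (t : F) :
    Matrix.single a (gam b) t * Cm m F = Matrix.single a b (t * sC F b) := by
  ext x y
  rw [Matrix.mul_apply]
  simp only [Matrix.single_apply, Cm_apply]
  rw [Finset.sum_eq_single (gam b)]
  · by_cases hx : a = x
    · subst hx
      by_cases hy : b = y
      · simp [hy]
      · have : ¬ (gam b = gam y) := fun h => hy (gam_inj h)
        simp [hy, this]
    · simp [hx]
  · intro z _ hz
    have : ¬ (gam b = z) := fun h => hz h.symm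
    simp [this]
  · intro h; exact absurd (Finset.mem_univ _) h

end Cfsg.Agent.Lib.Helper77SpCxval
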