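import Cfsg.Agent.Lib.Helper43SpDefs
import Cfsg.Agent.Lib.Helper77SpCxval
import Cfsg.Agent.Lib.Helper36SpDval

set_option autoImplicit false

namespace Cfsg.Agent.Lib.Helper77SpCxd

open Matrix Cfsg.Agent.Lib.Helper43St Cfsg.Agent.Lib.Helper43Sp
open Cfsg.Agent.Lib.Helper77SpTgam Cfsg.Agent.Lib.Helper77SpCxval

variable {m : ℕ} {F : Type*} [Field F]

theorem chi_ng (d : Fin m → Fˣ) (a : I m) : chi d (ng a) = (chi d a)⁻¹ := by
  rcases a with i | i <;> simp [chi, ng]

theorem Cm_mul_Dm (d d' : Fin m → Fˣ) (h : ∀ a, chi d' (gam a) = chi d a) :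
    Cm m F * Dm d = Dm d' * Cm m F := by
  ext x y
  rw [Dm, Dm, Matrix.mul_diagonal, Matrix.diagonal_mul, Cm_apply]
  by_cases hx : x = gam y
  · subst hx
    rw [if_pos rfl, h, mul_comm]
  · rw [if_neg hx, zero_mul, mul_zero]

theorem cx_D (d : Fin m → Fˣ) :
    ∃ d' : Fin m → Fˣ, (cx m F : Sp m F) * D d * (cx m F)⁻¹ = D d' ∧ ∀ a, chi d' (gam a) = chi d a := by
  have key : ∀ a, chi (fun i => chi d (Classical.choose (gam_surj (Sum.inl i)))) (gam a) = chi d a := by
    intro a
    rcases hga : gam a with i | i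
    · have h1 := Classical.choose_spec (gam_surj (Sum.inl i : I m))
      have h2 : Classical.choose (gam_surj (Sum.inl i : I m)) = a := gam_inj (h1.trans hga.symm)
      simp only [chi, Sum.elim_inl]
      rw [h2]
    · have h1 := Classical.choose_spec (gam_surj (Sum.inl i : I m))
      have h3 : gam (ng a) = Sum.inl i := by rw [gam_ng, hga]; rfl
      have h2 : Classical.choose (gam_surj (Sum.inl i : I m)) = ng a := gam_inj (h1.trans h3.symm)
      simp only [chi, Sum.elim_inr]
      rw [h2]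
      have := chi_ng d a
      simp only [chi] at this
      rw [this, inv_inv]
  refine ⟨_, ?_, key⟩
  rw [mul_inv_eq_iff_eq_mul]
  apply Subtype.ext
  change (cx m F : Sp m F).1 * (D d : Sp m F).1 = (D _ : Sp m F).1 * (cx m F : Sp m F).1
  rw [cx_val, Helper36SpDval.D_val, Helper36SpDval.D_val]
  exact Cm_mul_Dm d _ key

end Cfsg.Agent.Lib.Helper77SpCxd
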