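import Cfsg.Agent.Lib.Helper43SpDefs
import Cfsg.Agent.Lib.Helper77SpCxval
import Cfsg.Agent.Lib.Helper84SpXval

set_option autoImplicit false

namespace Cfsg.Agent.Lib.Helper77SpCxx

open Matrix Cfsg.Agent.Lib.Helper43St Cfsg.Agent.Lib.Helper43Sp
open Cfsg.Agent.Lib.Helper77SpTgam Cfsg.Agent.Lib.Helper77SpCxval

variable {m : ℕ} {F : Type*} [Field F]

theorem Cm_mul_Xm (a b : I m) (t : F) :
    Cm m F * Xm a b t = Xm (gam a) (gam b) (sC F a * sC F b * t) * Cm m F := by
  have hb := sC_mul_self (F := F) b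
  have ha := sC_mul_self (F := F) a
  have hna := sC_mul_self (F := F) (ng a)
  by_cases h : b = ng a
  · have h' : gam b = ng (gam a) := by rw [h, gam_ng]
    rw [Xm, if_pos h, Xm, if_pos h', mul_add, add_mul, mul_one, one_mul, Cm_mul_single,
      single_mul_Cm]
    congr 2
    linear_combination (- sC F a * t) * hb
  · have h' : ¬ (gam b = ng (gam a)) := by
      rw [← gam_ng]; exact fun e => h (gam_inj e)
    rw [Xm, if_neg h, Xm, if_neg h', mul_sub, sub_mul, mul_add, add_mul, mul_one, one_mul,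
      Cm_mul_single, single_mul_Cm, Cm_mul_single, ← gam_ng, ← gam_ng, single_mul_Cm,
      sg_gam, sg_gam]
    congr 2
    · congr 1
      linear_combination (- sC F a * t) * hb
    · linear_combination (-(sC F (ng b) * sg F a * sg F b * t)) * ha +
        (-(sC F (ng b) * sg F a * sg F b * t) * (sC F a * sC F a)) * hb +
        (-(sC F (ng b) * sg F a * sg F b * t) * (sC F a * sC F a) * (sC F b * sC F b)) * hna

theorem cx_X (a b : I m) (h : a ≠ b) :
    ∃ ε : F, ε ≠ 0 ∧ ∀ t, (cx m F : Sp m F) * X a b t * (cx m F)⁻¹ = X (gam a) (gam b) (ε * t) := by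
  refine ⟨sC F a * sC F b, mul_ne_zero (sC_ne_zero a) (sC_ne_zero b), fun t => ?_⟩
  rw [mul_inv_eq_iff_eq_mul]
  apply Subtype.ext
  have h' : gam a ≠ gam b := fun e => h (gam_inj e)
  change (cx m F : Sp m F).1 * (X a b t : Sp m F).1 = (X (gam a) (gam b) _ : Sp m F).1 * (cx m F : Sp m F).1
  rw [cx_val, Helper84SpXval.X_val a b h, Helper84SpXval.X_val _ _ h', Cm_mul_Xm]

end Cfsg.Agent.Lib.Helper77SpCxx
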