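import Cfsg.Agent.Lib.Helper43SpDefs
import Cfsg.Agent.Lib.Helper77SpCxx
import Cfsg.Agent.Lib.Helper84SpXval
import Cfsg.Agent.Lib.Helper84SpXcomm
import Cfsg.Agent.Lib.Helper36SpXbasic
import Cfsg.Agent.Lib.Helper36SpDx
import Cfsg.Agent.Lib.Helper39SpXs4

set_option autoImplicit false

namespace Cfsg.Agent.Lib.Helper77SpTIIIc

open Matrix Cfsg.Agent.Lib.Helper43St Cfsg.Agent.Lib.Helper43Sp

variable {m : ℕ} {F : Type*} [Field F]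

theorem X_val (a b : I m) (h : a ≠ b) (t : F) :
    ((X a b t : Sp m F) : Matrix (I m) (I m) F) = Xm a b t := Helper84SpXval.X_val a b h t

theorem X_add (a b : I m) (h : a ≠ b) (s t : F) : (X a b (s + t) : Sp m F) = X a b s * X a b t :=
  Helper36SpXbasic.X_add a b h s t X_val

theorem X_inv (a b : I m) (t : F) : (X a b t : Sp m F)⁻¹ = X a b (-t) :=
  Helper36SpXbasic.X_inv a b t X_val

theorem X_sym (a b : I m) (h : ab a ≠ ab b) (t : F) :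
    (X a b t : Sp m F) = X (ng b) (ng a) (-(sg F a * sg F b * t)) :=
  Helper36SpXbasic.X_sym a b h t X_val

theorem X_s4 (a b : I m) (hab : ab a ≠ ab b) (s t : F) :
    (X a b s : Sp m F) * X b (ng b) t * (X a b s)⁻¹ =
      X a (ng b) (s * t) * X a (ng a) (sg F a * sg F b * s ^ 2 * t) * X b (ng b) t :=
  Helper39SpXs4.X_s4 a b hab s t X_val X_inv

theorem D_X (d : Fin m → Fˣ) (a b : I m) (h : a ≠ b) (t : F) :
    (D d : Sp m F) * X a b t * (D d)⁻¹ = X a b ((chi d a : F) * ((chi d b : Fˣ) : F)⁻¹ * t) :=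
  Helper36SpDx.D_X d a b h t X_val

theorem conj3 {G : Type*} [Group G] (g x y z : G) :
    g * (x * y * z) * g⁻¹ = (g * x * g⁻¹) * (g * y * g⁻¹) * (g * z * g⁻¹) := by group

theorem conj2 {G : Type*} [Group G] (g x y : G) :
    g * (x * y) * g⁻¹ = (g * x * g⁻¹) * (g * y * g⁻¹) := by group

theorem caseIII_short [Finite F] (K : Subgroup (Sp 2 F)) (hD : ∀ d : Fin 2 → Fˣ, (D d : Sp 2 F) ∈ K)
    (μ : Fˣ) (hμ : μ ≠ 1) (hb : cx 2 F * X (Sum.inl 0) (Sum.inl 1) 1 ∈ K)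
    (hy : Full K (Sum.inr 0) (Sum.inl 0)) : Full K (Sum.inl 0) (Sum.inl 1) := by
  obtain ⟨ε1, hε1, h1⟩ := Helper77SpCxx.cx_X (F := F) (Sum.inr 1 : I 2) (Sum.inl 0) (by simp)
  obtain ⟨ε2, hε2, h2⟩ := Helper77SpCxx.cx_X (F := F) (Sum.inr 1 : I 2) (Sum.inl 1) (by simp)
  obtain ⟨ε3, hε3, h3⟩ := Helper77SpCxx.cx_X (F := F) (Sum.inr 0 : I 2) (Sum.inl 0) (by simp)
  have g1 : gam (Sum.inr 1 : I 2) = Sum.inl 0 := rfl
  have g2 : gam (Sum.inl 0 : I 2) = Sum.inl 1 := rfl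
  have g3 : gam (Sum.inl 1 : I 2) = Sum.inr 0 := rfl
  have g4 : gam (Sum.inr 0 : I 2) = Sum.inr 1 := rfl
  rw [g1, g2] at h1
  rw [g1, g3] at h2
  rw [g4, g2] at h3
  -- the element `v`
  have hv : (X (Sum.inl 0) (Sum.inl 1) 1 : Sp 2 F) = X (Sum.inr 1) (Sum.inr 0) (-1) := by
    rw [X_sym (Sum.inl 0 : I 2) (Sum.inl 1) (by simp [ab])]
    simp [ng, sg]
  have hs4 : ∀ t : F, (X (Sum.inr 1) (Sum.inr 0) (-1) : Sp 2 F) * X (Sum.inr 0) (Sum.inl 0) t *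
      (X (Sum.inr 1) (Sum.inr 0) (-1))⁻¹ =
      X (Sum.inr 1) (Sum.inl 0) (-t) * X (Sum.inr 1) (Sum.inl 1) t * X (Sum.inr 0) (Sum.inl 0) t := by
    intro t
    have := X_s4 (F := F) (Sum.inr 1 : I 2) (Sum.inr 0) (by simp [ab]) (-1) t
    simpa [ng, sg] using this
  -- step 0
  have s0 : ∀ t : F, (X (Sum.inl 0) (Sum.inl 1) (ε1 * -t) : Sp 2 F) * X (Sum.inl 0) (Sum.inr 0) (ε2 * t) *
      X (Sum.inr 1) (Sum.inl 1) (ε3 * t) ∈ K := by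
    intro t
    have h4 := K.mul_mem (K.mul_mem hb (hy t)) (K.inv_mem hb)
    rw [hv] at h4
    have h5 : (cx 2 F * X (Sum.inr 1) (Sum.inr 0) (-1) : Sp 2 F) * X (Sum.inr 0) (Sum.inl 0) t *
        (cx 2 F * X (Sum.inr 1) (Sum.inr 0) (-1))⁻¹ =
        cx 2 F * (X (Sum.inr 1) (Sum.inr 0) (-1) * X (Sum.inr 0) (Sum.inl 0) t *
          (X (Sum.inr 1) (Sum.inr 0) (-1))⁻¹) * (cx 2 F)⁻¹ := by group
    rw [h5, hs4, conj3, h1, h2, h3] at h4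
    exact h4
  have cAB : ∀ s t : F, Commute (X (Sum.inl 0) (Sum.inl 1) s : Sp 2 F) (X (Sum.inl 0) (Sum.inr 0) t) :=
    fun s t => Helper84SpXcomm.X_comm _ _ _ _ (by simp) (by simp) (by simp) (by simp)
      (by simp [ng]) (by simp [ng]) s t
  -- step 1
  have s1 : ∀ t : F, (X (Sum.inl 0) (Sum.inl 1) (((μ : F) - 1) * (ε1 * -t)) : Sp 2 F) *
      X (Sum.inl 0) (Sum.inr 0) (((μ : F) ^ 2 - 1) * (ε2 * t)) ∈ K := by
    intro t
    have h4 := K.mul_mem (K.mul_mem (K.mul_mem (hD (Pi.mulSingle 0 μ)) (s0 t))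
      (K.inv_mem (hD (Pi.mulSingle 0 μ)))) (K.inv_mem (s0 t))
    rw [conj3, D_X _ _ _ (by simp), D_X _ _ _ (by simp), D_X _ _ _ (by simp)] at h4
    have e1 : ((chi (Pi.mulSingle (0 : Fin 2) μ) (Sum.inl 0 : I 2) : Fˣ) : F) = μ := by simp [chi]
    have e2 : ((chi (Pi.mulSingle (0 : Fin 2) μ) (Sum.inl 1 : I 2) : Fˣ) : F) = 1 := by simp [chi]
    have e3 : ((chi (Pi.mulSingle (0 : Fin 2) μ) (Sum.inr 0 : I 2) : Fˣ) : F) = (μ : F)⁻¹ := by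
      simp [chi]
    have e4 : ((chi (Pi.mulSingle (0 : Fin 2) μ) (Sum.inr 1 : I 2) : Fˣ) : F) = 1 := by simp [chi]
    rw [e1, e2, e3, e4] at h4
    convert h4 using 1
    have a1 : ((μ : F) - 1) * (ε1 * -t) = (μ : F) * 1⁻¹ * (ε1 * -t) + -(ε1 * -t) := by
      rw [inv_one]; ring
    have a2 : ((μ : F) ^ 2 - 1) * (ε2 * t) = (μ : F) * (μ : F)⁻¹⁻¹ * (ε2 * t) + -(ε2 * t) := by
      rw [inv_inv]; ring
    have a3 : (1 : F) * 1⁻¹ * (ε3 * t) = ε3 * t := by rw [inv_one]; ring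
    rw [a1, a2, a3, X_add _ _ (by simp), X_add _ _ (by simp), ← X_inv, ← X_inv]
    have c1 := cAB (ε1 * -t) (ε2 * t)
    have c2 := cAB (ε1 * -t) ((μ : F) * (μ : F)⁻¹⁻¹ * (ε2 * t))
    generalize (X (Sum.inl 0) (Sum.inl 1) (ε1 * -t) : Sp 2 F) = A at *
    generalize (X (Sum.inl 0) (Sum.inr 0) (ε2 * t) : Sp 2 F) = B at *
    generalize (X (Sum.inl 0) (Sum.inr 0) ((μ : F) * (μ : F)⁻¹⁻¹ * (ε2 * t)) : Sp 2 F) = B' at *
    generalize (X (Sum.inr 1) (Sum.inl 1) (ε3 * t) : Sp 2 F) = C at *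
    generalize (X (Sum.inl 0) (Sum.inl 1) ((μ : F) * 1⁻¹ * (ε1 * -t)) : Sp 2 F) = A' at *
    have c3 : A⁻¹ * B' = B' * A⁻¹ := (c2.inv_left).eq
    have c4 : A⁻¹ * B⁻¹ = B⁻¹ * A⁻¹ := (c1.inv_inv).eq
    calc A' * A⁻¹ * (B' * B⁻¹) = A' * (A⁻¹ * B') * B⁻¹ := by group
      _ = A' * (B' * A⁻¹) * B⁻¹ := by rw [c3]
      _ = A' * B' * (A⁻¹ * B⁻¹) := by group
      _ = A' * B' * (B⁻¹ * A⁻¹) := by rw [c4]
      _ = A' * B' * C * (A * B * C)⁻¹ := by group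
  -- step 2
  have s2 : ∀ t : F, (X (Sum.inl 0) (Sum.inl 1) (((μ : F)⁻¹ - 1) * (((μ : F) - 1) * (ε1 * -t))) : Sp 2 F)
      ∈ K := by
    intro t
    have h4 := K.mul_mem (K.mul_mem (K.mul_mem (hD (Pi.mulSingle 1 μ)) (s1 t))
      (K.inv_mem (hD (Pi.mulSingle 1 μ)))) (K.inv_mem (s1 t))
    rw [conj2, D_X _ _ _ (by simp), D_X _ _ _ (by simp)] at h4
    have e1 : ((chi (Pi.mulSingle (1 : Fin 2) μ) (Sum.inl 0 : I 2) : Fˣ) : F) = 1 := by simp [chi]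
    have e2 : ((chi (Pi.mulSingle (1 : Fin 2) μ) (Sum.inl 1 : I 2) : Fˣ) : F) = μ := by simp [chi]
    have e3 : ((chi (Pi.mulSingle (1 : Fin 2) μ) (Sum.inr 0 : I 2) : Fˣ) : F) = 1 := by
      simp [chi]
    rw [e1, e2, e3] at h4
    convert h4 using 1
    have a1 : ((μ : F)⁻¹ - 1) * (((μ : F) - 1) * (ε1 * -t)) =
        1 * (μ : F)⁻¹ * (((μ : F) - 1) * (ε1 * -t)) + -(((μ : F) - 1) * (ε1 * -t)) := by ring
    have a3 : (1 : F) * 1⁻¹ * (((μ : F) ^ 2 - 1) * (ε2 * t)) = ((μ : F) ^ 2 - 1) * (ε2 * t) := by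
      rw [inv_one]; ring
    rw [a1, a3, X_add _ _ (by simp), ← X_inv]
    group
  -- conclusion
  intro s
  have hμ1 : (μ : F) - 1 ≠ 0 := by
    intro h
    apply hμ
    ext
    simpa [sub_eq_zero] using h
  have hμ2 : (μ : F)⁻¹ - 1 ≠ 0 := by
    intro h
    apply hμ
    ext
    have : (μ : F)⁻¹ = 1 := by simpa [sub_eq_zero] using h
    simpa using this
  have := s2 (-(((μ : F)⁻¹ - 1)⁻¹ * ((μ : F) - 1)⁻¹ * ε1⁻¹ * s))
  convert this using 2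
  generalize (μ : F)⁻¹ - 1 = x at *
  generalize (μ : F) - 1 = y at *
  field_simp

end Cfsg.Agent.Lib.Helper77SpTIIIc
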