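import Cfsg.Agent.Lib.Helper43SpDefs
import Cfsg.Agent.Lib.Helper77SpCxd

set_option autoImplicit false

namespace Cfsg.Agent.Lib.Helper77SpTtorus

open Matrix Cfsg.Agent.Lib.Helper43St Cfsg.Agent.Lib.Helper43Sp
open Cfsg.Agent.Lib.Helper77SpTgam Cfsg.Agent.Lib.Helper77SpCxval Cfsg.Agent.Lib.Helper77SpCxd

variable {m : ℕ} {F : Type*} [Field F]

/-- the torus as a homomorphism -/
noncomputable def Dhom (m : ℕ) (F : Type*) [Field F] : (Fin m → Fˣ) →* Sp m F :=
  MonoidHom.mk' D Helper36SpDval.D_mul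

theorem Dhom_apply (d : Fin m → Fˣ) : Dhom m F d = D d := rfl

theorem iter_ng (k : ℕ) (a : I m) : gam^[k] (ng a) = ng (gam^[k] a) := by
  induction k with
  | zero => rfl
  | succ k ih => rw [Function.iterate_succ_apply', Function.iterate_succ_apply', ih, gam_ng]

theorem iter_step (K : Subgroup (Sp m F)) (hc : cx m F ∈ K) (d : Fin m → Fˣ) (h : D d ∈ K) (k : ℕ) :
    ∃ d' : Fin m → Fˣ, (D d' : Sp m F) ∈ K ∧ ∀ a, chi d' (gam^[k] a) = chi d a := by
  induction k with
  | zero => exact ⟨d, h, fun a => rfl⟩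
  | succ k ih =>
    obtain ⟨d1, h1, h2⟩ := ih
    obtain ⟨d2, h3, h4⟩ := cx_D d1
    refine ⟨d2, ?_, fun a => ?_⟩
    · rw [← h3]
      exact K.mul_mem (K.mul_mem hc h1) (K.inv_mem hc)
    · rw [Function.iterate_succ_apply', h4, h2]

theorem torus_all (K : Subgroup (Sp m F)) (hc : cx m F ∈ K) (ζ : Fˣ)
    (hζ : ∀ u : Fˣ, u ∈ Subgroup.zpowers ζ) (i0 : Fin m) (h : D (Pi.mulSingle i0 ζ) ∈ K) :
    ∀ d : Fin m → Fˣ, (D d : Sp m F) ∈ K := by
  have hs : ∀ i : Fin m, (D (Pi.mulSingle i ζ) : Sp m F) ∈ K := by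
    intro i
    obtain ⟨k, -, hk⟩ := gam_trans (Sum.inl i0 : I m) (Sum.inl i)
    obtain ⟨d', h1, h2⟩ := iter_step K hc _ h k
    have hsurj : Function.Surjective (gam^[k] : I m → I m) := gam_surj.iterate k
    have : d' = Pi.mulSingle i ζ := by
      funext j
      by_cases hj : j = i
      · subst hj
        have := h2 (Sum.inl i0)
        rw [hk] at this
        simpa [chi] using this
      · rw [Pi.mulSingle_eq_of_ne hj]
        obtain ⟨a, ha⟩ := hsurj (Sum.inl j)
        have h3 := h2 a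
        rw [ha] at h3
        have h4 : chi d' (Sum.inl j) = d' j := rfl
        rw [← h4, h3]
        rcases a with l | l
        · have hl : l ≠ i0 := by
            rintro rfl
            rw [hk] at ha
            exact hj (Sum.inl_injective ha).symm
          simp [chi, Pi.mulSingle_eq_of_ne hl]
        · have hl : l ≠ i0 := by
            rintro rfl
            have h5 := iter_ng k (Sum.inl l : I m)
            rw [hk] at h5
            have h6 : ng (Sum.inl l : I m) = Sum.inr l := rfl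
            rw [h6, ha] at h5
            simp [ng] at h5
          simp [chi, Pi.mulSingle_eq_of_ne hl]
    rw [← this]; exact h1
  have hu : ∀ (i : Fin m) (u : Fˣ), Pi.mulSingle i u ∈ K.comap (Dhom m F) := by
    intro i u
    obtain ⟨z, rfl⟩ := Subgroup.mem_zpowers_iff.1 (hζ u)
    have h1 : (Pi.mulSingle i (ζ ^ z) : Fin m → Fˣ) = (Pi.mulSingle i ζ) ^ z := by
      exact map_zpow (MonoidHom.mulSingle (fun _ : Fin m => Fˣ) i) ζ z
    rw [h1]
    have h2 : (Pi.mulSingle i ζ : Fin m → Fˣ) ∈ K.comap (Dhom m F) := hs i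
    exact Subgroup.zpow_mem _ h2 z
  intro d
  have h1 : d ∈ K.comap (Dhom m F) := by
    rw [← Finset.univ_prod_mulSingle d]
    exact Subgroup.prod_mem _ (fun i _ => hu i (d i))
  exact h1

end Cfsg.Agent.Lib.Helper77SpTtorus
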