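import Cfsg.Agent.Lib.Helper43SpDefs
import Cfsg.Agent.Lib.Helper84SpXval
import Cfsg.Agent.Lib.Helper84SpXcomm
import Cfsg.Agent.Lib.Helper39SpXs4
import Cfsg.Agent.Lib.Helper36SpXbasic
import Cfsg.Agent.Lib.Helper36SpDval
import Cfsg.Agent.Lib.Helper36SpDx
import Cfsg.Agent.Lib.Helper77SpCxx
import Cfsg.Agent.Lib.Helper77SpCxd
import Cfsg.Agent.Lib.Helper52SpSpgen
import Cfsg.Agent.Lib.Helper65Sptfull
import Cfsg.Agent.Lib.Helper77SpTgam
import Cfsg.Agent.Lib.Helper52SpTshort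
import Cfsg.Agent.Lib.Helper65Sptlong
import Cfsg.Agent.Lib.Helper65Spttop
import Cfsg.Agent.Lib.Helper77SpTtorus
import Cfsg.Agent.Lib.Helper65Sptscale
import Cfsg.Agent.Lib.Helper65SptI
import Cfsg.Agent.Lib.Helper1SptIIb
import Cfsg.Agent.Lib.Helper5SptIIId
import Cfsg.Agent.Lib.Helper39SpTIIIa
import Cfsg.Agent.Lib.Helper39SpTIIIb
import Cfsg.Agent.Lib.Helper77SpTIIIc

set_option autoImplicit false

/-! Project 243: the wiring of parts M and T (two generation of `Sp_{2m}(F)`), without extra hypotheses. -/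

namespace Cfsg.Agent.Lib.Helper36SpTWire

open Matrix Cfsg.Agent.Lib.Helper43St Cfsg.Agent.Lib.Helper43Sp

variable {m : ℕ} {F : Type*} [Field F]

theorem X_val (a b : I m) (h : a ≠ b) (t : F) :
    ((X a b t : Sp m F) : Matrix (I m) (I m) F) = Xm a b t := Helper84SpXval.X_val a b h t

theorem X_inv (a b : I m) (t : F) : (X a b t : Sp m F)⁻¹ = X a b (-t) :=
  Helper36SpXbasic.X_inv a b t X_val

theorem X_s4' (a b : I m) (hab : ab a ≠ ab b) (s t : F) :
    (X b (ng b) t : Sp m F) * X a b s * (X b (ng b) t)⁻¹ =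
      X a b s * X a (ng b) (-(s * t)) * X a (ng a) (sg F a * sg F b * s ^ 2 * t) :=
  Helper39SpXs4.X_s4' a b hab s t X_val X_inv

theorem D_X (d : Fin m → Fˣ) (a b : I m) (h : a ≠ b) (t : F) :
    (D d : Sp m F) * X a b t * (D d)⁻¹ = X a b ((chi d a : F) * ((chi d b : Fˣ) : F)⁻¹ * t) :=
  Helper36SpDx.D_X d a b h t X_val

theorem sp_gen (m : ℕ) (F : Type*) [Field F] :
    Subgroup.closure {g : Sp m F | ∃ a b t, a ≠ b ∧ g = X a b t} = ⊤ :=
  Helper52SpSpgen.sp_gen m F X_val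

theorem full_gam (K : Subgroup (Sp m F)) (hc : cx m F ∈ K) (a b : I m) (hab : a ≠ b)
    (h : Full K a b) : Full K (gam a) (gam b) :=
  Helper65Sptfull.full_gam K hc a b hab h Helper77SpCxx.cx_X

theorem short_all (hm : 2 ≤ m) (K : Subgroup (Sp m F)) (hc : cx m F ∈ K) (a : I m)
    (h : Full K a (gam a)) : ∀ b c : I m, ab b ≠ ab c → Full K b c :=
  Helper52SpTshort.short_all hm K hc a h full_gam Helper65Sptfull.full_chain
    Helper65Sptfull.full_sym Helper77SpTgam.gam_pow_m Helper77SpTgam.gam_trans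
    Helper77SpTgam.gam_ab

theorem long_all (K : Subgroup (Sp m F)) (hc : cx m F ∈ K) (a : I m)
    (h : Full K a (ng a)) : ∀ b : I m, Full K b (ng b) :=
  Helper65Sptlong.long_all K hc a h Helper77SpCxx.cx_X

theorem top_of_full (K : Subgroup (Sp m F)) (h1 : ∀ b c : I m, ab b ≠ ab c → Full K b c)
    (h2 : ∀ b : I m, Full K b (ng b)) : K = ⊤ :=
  Helper65Spttop.top_of_full K h1 h2 (sp_gen m F)

theorem caseI [Fintype F] (h3 : 3 ≤ Fintype.card F) :
    ∃ a b : Sp (m + 3) F, Subgroup.closure ({a, b} : Set (Sp (m + 3) F)) = ⊤ :=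
  Helper65SptI.caseI h3 Helper77SpCxx.cx_X (sp_gen (m + 3) F) Helper77SpTtorus.torus_all

theorem caseII [Fintype F] (h2 : Fintype.card F = 2) :
    ∃ a b : Sp (m + 3) F, Subgroup.closure ({a, b} : Set (Sp (m + 3) F)) = ⊤ :=
  Helper1SptIIb.caseII h2 (short_all (by omega)) long_all top_of_full Helper84SpXcomm.X_comm X_s4'

theorem caseIII [Fintype F] (h3 : 3 ≤ Fintype.card F) :
    ∃ a b : Sp 2 F, Subgroup.closure ({a, b} : Set (Sp 2 F)) = ⊤ :=
  Helper5SptIIId.caseIII h3 Helper36SpDval.D_pow Helper36SpDval.D_one D_X (short_all le_rfl)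
    long_all top_of_full Helper65Sptscale.full_long_of_one
    (fun K ζ hζ h1 hg hb => Helper39SpTIIIa.caseIII_torus K ζ hζ h1 hg hb Helper36SpDval.D_mul
      Helper36SpDval.D_one D_X Helper77SpCxx.cx_X Helper77SpCxd.cx_D)
    (fun K hD μ hμ hb hy => Helper39SpTIIIb.caseIII_neg K hD μ hμ hb hy D_X Helper77SpCxx.cx_X)
    (fun K hD μ hμ hb hy => Helper77SpTIIIc.caseIII_short K hD μ hμ hb hy)

theorem sp_two_gen [Fintype F] (m : ℕ) (hm : 2 ≤ m) (hF : m = 2 → 2 < Fintype.card F) :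
    ∃ a b : Sp m F, Subgroup.closure ({a, b} : Set (Sp m F)) = ⊤ := by
  rcases Nat.lt_or_ge m 3 with h | h
  · obtain rfl : m = 2 := by omega
    exact caseIII (hF rfl)
  · obtain ⟨k, rfl⟩ : ∃ k, m = k + 3 := ⟨m - 3, by omega⟩
    rcases Nat.lt_or_ge (Fintype.card F) 3 with h' | h'
    · have : 1 < Fintype.card F := Fintype.one_lt_card
      exact caseII (by omega)
    · exact caseI h'

end Cfsg.Agent.Lib.Helper36SpTWire
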