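import Cfsg.Agent.Lib.Helper43PresM

set_option autoImplicit false

namespace Cfsg.Agent.Lib.Helper43P3

open Cfsg.Agent.Lib.Helper43Pres

variable {F : Type*} [Field F] {Γ : Type*} [Group Γ]

/-- `w` conjugates the one-parameter family `x` to `x'`, scaling by `z`. -/
def Maps (w : Γ) (x x' : F → Γ) (z : F) : Prop := ∀ a, w * x a * w⁻¹ = x' (z * a)

namespace Maps

variable {w w' : Γ} {x x' x'' : F → Γ} {z z' : F}

theorem comp (h' : Maps w' x' x'' z') (h : Maps w x x' z) : Maps (w' * w) x x'' (z' * z) := by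
  intro a
  have : w' * w * x a * (w' * w)⁻¹ = w' * (w * x a * w⁻¹) * w'⁻¹ := by group
  rw [this, h, h', mul_assoc]

theorem inv (h : Maps w x x' z) (hz : z ≠ 0) : Maps w⁻¹ x' x z⁻¹ := by
  intro a
  have := h (z⁻¹ * a)
  rw [mul_inv_cancel_left₀ hz] at this
  rw [← this]; group

theorem one (x : F → Γ) : Maps (1 : Γ) x x 1 := by
  intro a; simp

theorem pow (h : Maps w x x z) (n : ℕ) : Maps (w ^ n) x x (z ^ n) := by
  induction n with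
  | zero => simpa using one x
  | succ n ih =>
    rw [pow_succ, pow_succ]
    exact ih.comp h

theorem congr (h : Maps w x x' z) (e : w = w') (e' : z = z') : Maps w' x x' z' := by
  subst e; subst e'; exact h

/-- transport of a torus action along `w`. -/
theorem transport {k : Γ} {s : F} (hk : Maps k x x z) (hw : Maps w x x' s) (hs : s ≠ 0) :
    Maps (w * k * w⁻¹) x' x' z :=
  ((hw.comp hk).comp (hw.inv hs)).congr rfl (by field_simp)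

theorem mem_range (h : Maps w x x' z) (a : F) : w * x a * w⁻¹ ∈ Set.range x' := ⟨_, (h a).symm⟩

end Maps

/-- conjugate of an additive map is additive -/
theorem add_conj {x : F → Γ} (hadd : ∀ a b, x (a + b) = x a * x b) (w : Γ) (a b : F) :
    w * x (a + b) * w⁻¹ = (w * x a * w⁻¹) * (w * x b * w⁻¹) := by
  rw [hadd]; group

section Roots

variable (φ : F → Γ) (t c : Γ)

/-- root maps -/
def x21 (a : F) : Γ := t * φ (-a) * t⁻¹
def x23 (a : F) : Γ := c * φ a * c⁻¹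
def x31 (a : F) : Γ := c * (c * φ a * c⁻¹) * c⁻¹
def x32 (a : F) : Γ := c * (t * φ (-a) * t⁻¹) * c⁻¹
def x13 (a : F) : Γ := c * (c * (t * φ (-a) * t⁻¹) * c⁻¹) * c⁻¹

end Roots

/-- the base data in the abstract group -/
structure S3 (φ : F → Γ) (g t c : Γ) (ζ : F) (e : ℕ) : Prop where
  add : ∀ x y, φ (x + y) = φ x * φ y
  hg : Maps g φ φ ζ
  ζ_ne : ζ ≠ 0
  he : ζ ^ e = -1
  c3 : c * c * c = 1
  g01 : g * (c * g * c⁻¹) = (c * g * c⁻¹) * g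
  gprod : g * (c * g * c⁻¹) * (c * (c * g * c⁻¹) * c⁻¹) = 1
  hu : Maps (c * (c * g * c⁻¹) * c⁻¹)⁻¹ φ φ (ζ ^ 2)
  tg2 : t * (c * (c * g * c⁻¹) * c⁻¹) * t⁻¹ = (c * (c * g * c⁻¹) * c⁻¹)⁻¹
  R0 : φ 1 * t * φ 1 * t⁻¹ * φ 1 = t
  tc : t * c * t⁻¹ = (c * (c * g * c⁻¹) * c⁻¹) ^ e * c⁻¹
  com : ∀ i : ℕ, i < 3 → φ 1 * x23 φ c (ζ ^ i) * (φ 1)⁻¹ * (x23 φ c (ζ ^ i))⁻¹ = x13 φ t c (ζ ^ i)

namespace S3

variable {φ : F → Γ} {g t c : Γ} {ζ : F} {e : ℕ}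

local notation "g1" => (c * g * c⁻¹)
local notation "g2" => (c * (c * g * c⁻¹) * c⁻¹)

theorem cinv (S : S3 φ g t c ζ e) : c⁻¹ = c * c := by
  have := S.c3
  exact inv_eq_of_mul_eq_one_left this

theorem cg2 (S : S3 φ g t c ζ e) : c * g2 * c⁻¹ = g := by
  have h1 : c * g2 * c⁻¹ = (c * c * c) * g * (c * c * c)⁻¹ := by group
  rw [h1, S.c3]; simp

theorem g12 (S : S3 φ g t c ζ e) : g1 * g2 = g2 * g1 := by
  have := congrArg (fun x => c * x * c⁻¹) S.g01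
  calc g1 * g2 = c * (g * g1) * c⁻¹ := by group
    _ = c * (g1 * g) * c⁻¹ := this
    _ = _ := by group

theorem g20 (S : S3 φ g t c ζ e) : g2 * g = g * g2 := by
  have := congrArg (fun x => c * x * c⁻¹) S.g12
  calc g2 * g = g2 * (c * g2 * c⁻¹) := by rw [S.cg2]
    _ = c * (g1 * g2) * c⁻¹ := by group
    _ = c * (g2 * g1) * c⁻¹ := this
    _ = (c * g2 * c⁻¹) * g2 := by group
    _ = _ := by rw [S.cg2]

theorem g1_eq (S : S3 φ g t c ζ e) : g1 = g⁻¹ * g2⁻¹ := by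
  have := S.gprod
  have h : g * g1 = g2⁻¹ := eq_inv_of_mul_eq_one_left this
  calc g1 = g⁻¹ * (g * g1) := by group
    _ = _ := by rw [h]

/-! rotation -/
theorem c_12 (_S : S3 φ g t c ζ e) : Maps c φ (x23 φ c) 1 := by
  intro a; simp [x23]
theorem c_23 (_S : S3 φ g t c ζ e) : Maps c (x23 φ c) (x31 φ c) 1 := by
  intro a; simp [x23, x31]
theorem c_31 (S : S3 φ g t c ζ e) : Maps c (x31 φ c) φ 1 := by
  intro a
  have h1 : c * x31 φ c a * c⁻¹ = (c * c * c) * φ a * (c * c * c)⁻¹ := by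
    unfold x31; group
  rw [h1, S.c3]; simp
theorem c_21 (_S : S3 φ g t c ζ e) : Maps c (x21 φ t) (x32 φ t c) 1 := by
  intro a; simp [x21, x32]
theorem c_32 (_S : S3 φ g t c ζ e) : Maps c (x32 φ t c) (x13 φ t c) 1 := by
  intro a; simp [x32, x13]
theorem c_13 (S : S3 φ g t c ζ e) : Maps c (x13 φ t c) (x21 φ t) 1 := by
  intro a
  have h1 : c * x13 φ t c a * c⁻¹ = (c * c * c) * x21 φ t a * (c * c * c)⁻¹ := by
    unfold x13 x21; group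
  rw [h1, S.c3]; simp
theorem t_12 (_S : S3 φ g t c ζ e) : Maps t φ (x21 φ t) (-1) := by
  intro a; simp [x21]

/-! torus on `x12` -/
theorem g0_12 (S : S3 φ g t c ζ e) : Maps g φ φ ζ := S.hg
theorem g2_12 (S : S3 φ g t c ζ e) : Maps g2 φ φ (ζ ^ 2)⁻¹ :=
  (S.hu.inv (pow_ne_zero _ S.ζ_ne)).congr (inv_inv _) rfl
theorem g1_12 (S : S3 φ g t c ζ e) : Maps g1 φ φ ζ := by
  have h := (S.hg.inv S.ζ_ne).comp S.hu
  have hz := S.ζ_ne
  exact h.congr S.g1_eq.symm (by field_simp)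

/-! `t` on the torus -/
theorem t_g0 (S : S3 φ g t c ζ e) : t * g * t⁻¹ = g1⁻¹ := by
  have h1 : t * g * t⁻¹ = (t * c * t⁻¹) * (t * g2 * t⁻¹) * (t * c * t⁻¹)⁻¹ := by
    conv_lhs => rw [← S.cg2]
    group
  rw [h1, S.tc, S.tg2]
  have h2 : g2 ^ e * c⁻¹ * g2⁻¹ * (g2 ^ e * c⁻¹)⁻¹ = g2 ^ e * (c⁻¹ * g2 * c)⁻¹ * (g2 ^ e)⁻¹ := by
    group
  have h3 : c⁻¹ * g2 * c = g1 := by group
  rw [h2, h3]
  have h4 : Commute (g2 ^ e) g1⁻¹ := (Commute.pow_left (S.g12.symm : Commute g2 g1) e).inv_right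
  rw [h4.eq]; group

theorem t_g1 (S : S3 φ g t c ζ e) : t * g1 * t⁻¹ = g⁻¹ := by
  have h1 : t * g1 * t⁻¹ = (t * g * t⁻¹)⁻¹ * (t * g2 * t⁻¹)⁻¹ := by
    conv_lhs => rw [S.g1_eq]
    group
  rw [h1, S.t_g0, S.tg2, inv_inv, inv_inv]
  have := S.gprod
  have h : g * (g1 * g2) = 1 := by rw [← mul_assoc]; exact this
  exact eq_inv_of_mul_eq_one_right h

/-! the `SL₂` -/
theorem pre0 (S : S3 φ g t c ζ e) : Pre0 φ g2⁻¹ t (ζ ^ 2) where
  add := S.add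
  conj := by intro x; exact S.hu x
  z_ne := pow_ne_zero _ S.ζ_ne
  inv := by
    have : t * g2⁻¹ * t⁻¹ = (t * g2 * t⁻¹)⁻¹ := by group
    rw [this, S.tg2]

theorem RR0 (S : S3 φ g t c ζ e) : RR φ g2⁻¹ t ζ 0 := by
  unfold RR
  simp only [pow_zero, inv_one, one_mul]
  exact S.R0

theorem RR1 (S : S3 φ g t c ζ e) : RR φ g2⁻¹ t ζ 1 := by
  unfold RR
  simp only [pow_one]
  -- conjugate R0 by g
  have hgt : g * t * g⁻¹ = g2⁻¹ * t := by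
    have h1 : g * t * g⁻¹ = g * (t * g * t⁻¹)⁻¹ * t := by group
    rw [h1, S.t_g0, inv_inv]
    have := S.gprod
    rw [eq_inv_of_mul_eq_one_left this]
  have h0 : g * (φ 1 * t * φ 1 * t⁻¹ * φ 1) * g⁻¹ = g * t * g⁻¹ :=
    congrArg (fun x => g * x * g⁻¹) S.R0
  have h2 : g * (φ 1 * t * φ 1 * t⁻¹ * φ 1) * g⁻¹
      = (g * φ 1 * g⁻¹) * (g * t * g⁻¹) * (g * φ 1 * g⁻¹) * (g * t * g⁻¹)⁻¹ * (g * φ 1 * g⁻¹) := by
    group
  rw [h2, hgt, S.hg 1, mul_one] at h0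
  -- (h t) φ ζ (h t)⁻¹ = t (h⁻¹ φ ζ h) t⁻¹
  have P := S.pre0
  have h3 : g2⁻¹ * t = t * (g2⁻¹)⁻¹ := by
    have := P.inv
    calc g2⁻¹ * t = (t * g2⁻¹ * t⁻¹)⁻¹⁻¹⁻¹ * t := by rw [P.inv]; group
      _ = _ := by group
  have h4 : φ ζ * (g2⁻¹ * t) * φ ζ * (g2⁻¹ * t)⁻¹ * φ ζ
      = φ ζ * t * ((g2⁻¹)⁻¹ * φ ζ * g2⁻¹) * t⁻¹ * φ ζ := by
    rw [h3]; group
  rw [h4, P.conj_inv] at h0
  have hz := S.ζ_ne
  have h5 : (ζ ^ 2)⁻¹ * ζ = ζ⁻¹ := by field_simp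
  rw [h5] at h0
  exact h0

theorem RRall (S : S3 φ g t c ζ e) (j : ℕ) : RR φ g2⁻¹ t ζ j := RR_all S.pre0 S.RR0 S.RR1 j

theorem tt (S : S3 φ g t c ζ e) : t * t = g2 ^ e := by
  have h1 := tinv_of_RR S.add S.he S.RR0 (S.RRall e)
  have h2 : (g2⁻¹) ^ e * (t * t) = 1 := by
    rw [← mul_assoc, ← h1]; group
  rw [inv_pow] at h2
  exact (inv_mul_eq_one.mp h2).symm

end S3

end Cfsg.Agent.Lib.Helper43P3
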