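import Cfsg.Agent.Lib.Helper43R1Defs
import Cfsg.Agent.Lib.Helper43P3A

set_option autoImplicit false

/-! Project 143, piece `sS3`.  The other pieces enter as hypotheses (exactly the skeleton statements for `T`). -/

namespace Cfsg.Agent.Lib.Helper36StSS3

open Matrix Cfsg.Agent.Lib.Helper43R1 Cfsg.Agent.Lib.Helper43P3

variable {K : Type*} [Field K] {Γ : Type*} [Group Γ] (T : StR 3 K Γ)

/-- the lift of the 3-cycle (same body as in the skeleton) -/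
def cc : Γ := T.w 0 1 1 * T.w 1 2 1 * T.hh 0 1 (-1)

theorem cc_w (c : Γ) (hcx : ∀ (a b : Fin 3), a ≠ b → ∀ u : K, c * T.x a b u * c⁻¹ = T.x (a + 1) (b + 1) u)
    (a b : Fin 3) (hab : a ≠ b) (u : K) : c * T.w a b u * c⁻¹ = T.w (a + 1) (b + 1) u := by
  unfold StR.w
  rw [← hcx a b hab, ← hcx b a hab.symm]
  group

theorem cc_hh (c : Γ) (hcx : ∀ (a b : Fin 3), a ≠ b → ∀ u : K, c * T.x a b u * c⁻¹ = T.x (a + 1) (b + 1) u)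
    (a b : Fin 3) (hab : a ≠ b) (u : K) : c * T.hh a b u * c⁻¹ = T.hh (a + 1) (b + 1) u := by
  unfold StR.hh
  rw [← cc_w T c hcx a b hab, ← cc_w T c hcx a b hab]
  group

theorem hh_one (i j : Fin 3) : T.hh i j 1 = 1 := by
  unfold StR.hh
  exact mul_inv_cancel _

theorem s_S3 [Finite K] (ζ : K) (hζ : ζ ≠ 0) (e : ℕ) (he : ζ ^ e = -1)
    (w_ij : ∀ (i j k : Fin 3) (_ : i ≠ j) (_ : i ≠ k) (_ : j ≠ k) (t u : K) (_ : t ≠ 0),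
      T.w i j t * T.x i j u * (T.w i j t)⁻¹ = T.x j i (-(t⁻¹ ^ 2 * u)))
    (hh_mul : ∀ (i j k : Fin 3) (_ : i ≠ j) (_ : i ≠ k) (_ : j ≠ k) (a b : K) (_ : a ≠ 0) (_ : b ≠ 0),
      T.hh i j (a * b) = T.hh i j a * T.hh i j b)
    (hh_symm : ∀ (i j k : Fin 3) (_ : i ≠ j) (_ : i ≠ k) (_ : j ≠ k) (a : K) (_ : a ≠ 0),
      T.hh j i a = (T.hh i j a)⁻¹)
    (w_hh_self : ∀ (i j k : Fin 3) (_ : i ≠ j) (_ : i ≠ k) (_ : j ≠ k) (a : K) (_ : a ≠ 0),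
      T.w i j 1 * T.hh i j a * (T.w i j 1)⁻¹ = (T.hh i j a)⁻¹)
    (hh_ij : ∀ (i j k : Fin 3) (_ : i ≠ j) (_ : i ≠ k) (_ : j ≠ k) (a u : K) (_ : a ≠ 0),
      T.hh i j a * T.x i j u * (T.hh i j a)⁻¹ = T.x i j (a ^ 2 * u))
    (x_w_x : ∀ (i j k : Fin 3) (_ : i ≠ j) (_ : i ≠ k) (_ : j ≠ k),
      T.x i j 1 * T.w i j 1 * T.x i j 1 * (T.w i j 1)⁻¹ * T.x i j 1 = T.w i j 1)
    (hh_kj : ∀ (i j k : Fin 3) (_ : i ≠ j) (_ : i ≠ k) (_ : j ≠ k) (a u : K) (_ : a ≠ 0),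
      T.hh i j a * T.x k j u * (T.hh i j a)⁻¹ = T.x k j (a * u))
    (hh_comm : ∀ (i j k : Fin 3) (_ : i ≠ j) (_ : i ≠ k) (_ : j ≠ k) (a b : K) (_ : a ≠ 0) (_ : b ≠ 0),
      Commute (T.hh i j a) (T.hh j k b))
    (hh_chain : ∀ (i j k : Fin 3) (_ : i ≠ j) (_ : i ≠ k) (_ : j ≠ k) (a : K) (_ : a ≠ 0),
      T.hh i k a = T.hh i j a * T.hh j k a)
    (cc_x : ∀ (a b : Fin 3) (_ : a ≠ b) (u : K), cc T * T.x a b u * (cc T)⁻¹ = T.x (a + 1) (b + 1) u)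
    (cc_cube : cc T * cc T * cc T = 1)
    (t_cc : T.w 0 1 1 * cc T * (T.w 0 1 1)⁻¹ = T.hh 1 0 (-1) * (cc T)⁻¹) :
    S3 (T.x 0 1) (T.hh 2 1 ζ) (T.w 0 1 1) (cc T) ζ e := by
  have h01 : (0 : Fin 3) ≠ 1 := by decide
  have h02 : (0 : Fin 3) ≠ 2 := by decide
  have h12 : (1 : Fin 3) ≠ 2 := by decide
  have h10 : (1 : Fin 3) ≠ 0 := by decide
  have h20 : (2 : Fin 3) ≠ 0 := by decide
  have h21 : (2 : Fin 3) ≠ 1 := by decide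
  have g1 : cc T * T.hh 2 1 ζ * (cc T)⁻¹ = T.hh 0 2 ζ := cc_hh T (cc T) cc_x 2 1 h21 ζ
  have g2' : cc T * T.hh 0 2 ζ * (cc T)⁻¹ = T.hh 1 0 ζ := cc_hh T (cc T) cc_x 0 2 h02 ζ
  have g2 : cc T * (cc T * T.hh 2 1 ζ * (cc T)⁻¹) * (cc T)⁻¹ = T.hh 1 0 ζ := by rw [g1, g2']
  have hs : T.hh 1 0 ζ = (T.hh 0 1 ζ)⁻¹ := hh_symm 0 1 2 h01 h02 h12 ζ hζ
  have hcomm : Commute (T.hh 0 2 ζ) (T.hh 2 1 ζ) := hh_comm 0 2 1 h02 h01 h21 ζ ζ hζ hζ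
  have hpow : ∀ m : ℕ, T.hh 1 0 ζ ^ m = T.hh 1 0 (ζ ^ m) := by
    intro m
    induction m with
    | zero => rw [pow_zero, pow_zero, hh_one]
    | succ m ih => rw [pow_succ, pow_succ, ih, hh_mul 1 0 2 h10 h12 h02 _ _ (pow_ne_zero _ hζ) hζ]
  refine
    { add := T.add 0 1 h01
      hg := fun a => hh_kj 2 1 0 h21 h20 h10 ζ a hζ
      ζ_ne := hζ
      he := he
      c3 := cc_cube
      g01 := ?_
      gprod := ?_
      hu := ?_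
      tg2 := ?_
      R0 := x_w_x 0 1 2 h01 h02 h12
      tc := ?_
      com := ?_ }
  · rw [g1]
    exact hcomm.symm.eq
  · rw [g2, g1, hcomm.symm.eq, ← hh_chain 0 2 1 h02 h01 h21 ζ hζ, hs, mul_inv_cancel]
  · intro a
    rw [g2, hs, inv_inv]
    exact hh_ij 0 1 2 h01 h02 h12 ζ a hζ
  · rw [g2, hs, inv_inv]
    have := w_hh_self 0 1 2 h01 h02 h12 ζ hζ
    have e1 : T.w 0 1 1 * (T.hh 0 1 ζ)⁻¹ * (T.w 0 1 1)⁻¹
        = (T.w 0 1 1 * T.hh 0 1 ζ * (T.w 0 1 1)⁻¹)⁻¹ := by group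
    rw [e1, this, inv_inv]
  · rw [g2, hpow, he]
    exact t_cc
  · intro i _
    have e23 : ∀ a, x23 (T.x 0 1) (cc T) a = T.x 1 2 a := fun a => cc_x 0 1 h01 a
    have e13 : ∀ a, x13 (T.x 0 1) (T.w 0 1 1) (cc T) a = T.x 0 2 a := by
      intro a
      unfold x13
      rw [w_ij 0 1 2 h01 h02 h12 1 (-a) one_ne_zero]
      have : -((1 : K)⁻¹ ^ 2 * -a) = a := by simp
      rw [this, cc_x 1 0 h10 a]
      exact cc_x 2 1 h21 a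
    rw [e23, e13]
    have := T.chain 0 1 2 h01 h12 h02 1 (ζ ^ i)
    rw [one_mul] at this
    exact this

end Cfsg.Agent.Lib.Helper36StSS3
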