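import Mathlib
import Cfsg.Prelude.Def_FusionSystem
import Cfsg.Agent.Lib.Helper40FusWC

set_option autoImplicit false

/-! Control of weak closure of elements in saturated fusion systems, relative to a class `Cl` of
systems closed under normalizers of fully normalized subgroups (a class-parametrized version of the
induction of `Helper40FusWC`). -/

namespace Cfsg.Agent.Lib.Helper37FusWCC

open Cfsg Cfsg.FusionSystem Cfsg.Agent.Lib.Helper87Fusion Cfsg.Agent.Lib.Helper40FusWC

variable {Ω : Type*} [Group Ω]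

structure WDataC (p : ℕ) (Wf : Subgroup Ω → Subgroup Ω) (Adm : Subgroup Ω → Ω → Prop)
    (Cl : ∀ S : Subgroup Ω, FusionSystem S → Prop) : Prop where
  le : ∀ T : Subgroup Ω, Wf T ≤ T
  center_le : ∀ T : Subgroup Ω, Finite T → IsPGroup p T →
    T ⊓ Subgroup.centralizer (T : Set Ω) ≤ Wf T
  equiv : ∀ (T T' : Subgroup Ω) (e : T ≃* T'), Finite T → IsPGroup p T →
    ∀ x : T, (x : Ω) ∈ Wf T ↔ ((e x : T') : Ω) ∈ Wf T'
  adm_center : ∀ (T : Subgroup Ω) (z : Ω), Adm T z → z ∈ T ⊓ Subgroup.centralizer (T : Set Ω)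
  adm_mono : ∀ (S T : Subgroup Ω) (z : Ω), T ≤ S → S ⊓ Subgroup.centralizer (S : Set Ω) ≤ T →
    Adm S z → Adm T z
  cl_norm : ∀ (S : Subgroup Ω) [Finite S], IsPGroup p S → ∀ F : FusionSystem S, F.IsSaturated p →
    Cl S F → ∀ U : Subgroup Ω, F.IsFullyNormalized U → ∀ N : FusionSystem (normalizerIn S U),
    F.IsNormalizerSystem U N → Cl (normalizerIn S U) N
  loc : ∀ (S : Subgroup Ω) [Finite S], IsPGroup p S → ∀ F : FusionSystem S, F.IsSaturated p →
    Cl S F →
    ∀ R : Subgroup Ω, F.IsNormal R → F.IsCentric R → ∀ z : Ω, Adm S z → FixA F (Wf S) z → Fix F z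

section
variable {p : ℕ} {Wf : Subgroup Ω → Subgroup Ω} {Adm : Subgroup Ω → Ω → Prop}
  {Cl : ∀ S : Subgroup Ω, FusionSystem S → Prop}

open Cfsg.Agent.Lib.Helper86Fusion Cfsg.Agent.Lib.Helper86Fusion2

theorem WDataC.image (D : WDataC p Wf Adm Cl) {S : Subgroup Ω} [Finite S] (hS : IsPGroup p S)
    {F : FusionSystem S} {T T' : Subgroup Ω} {f : Ω → Ω} (hf : IsMap F T f)
    (hT' : f '' (T : Set Ω) = (T' : Set Ω)) : f '' (Wf T : Set Ω) = (Wf T' : Set Ω) := by
  obtain ⟨e, he⟩ := exists_mulEquiv hf hT'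
  have hfin : Finite T := finite_of_le hf.le
  have hTp : IsPGroup p T := hS.to_le hf.le
  ext y
  constructor
  · rintro ⟨x, hx, rfl⟩
    have h1 := (D.equiv T T' e hfin hTp ⟨x, D.le T hx⟩).1 hx
    rwa [he] at h1
  · intro hy
    have hyT' : y ∈ T' := D.le T' hy
    refine ⟨(e.symm ⟨y, hyT'⟩ : T), ?_, ?_⟩
    · apply (D.equiv T T' e hfin hTp _).2
      rw [MulEquiv.apply_symm_apply]
      exact hy
    · rw [← he, MulEquiv.apply_symm_apply]

theorem WDataC.normalizerIn_le (D : WDataC p Wf Adm Cl) {S : Subgroup Ω} [Finite S] (hS : IsPGroup p S)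
    (F : FusionSystem S) {T : Subgroup Ω} (hT : T ≤ S) :
    normalizerIn S T ≤ normalizerIn S (Wf T) := by
  rintro s ⟨hsS, hsN⟩
  refine ⟨hsS, mem_normalizer_of_image_conj ?_⟩
  exact D.image hS (isMap_conj F hT hsS) (image_conj_of_mem_normalizer hsN)

end


section induction
variable {p : ℕ} [hp : Fact p.Prime] {Wf : Subgroup Ω → Subgroup Ω} {Adm : Subgroup Ω → Ω → Prop}
  {Cl : ∀ S : Subgroup Ω, FusionSystem S → Prop}

open Cfsg.Agent.Lib.Helper86Fusion Cfsg.Agent.Lib.Helper86Fusion2 Cfsg.Agent.Lib.Helper87Fusion2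
  Cfsg.Agent.Lib.Helper87NormSys Cfsg.Agent.Lib.Helper87KNorm Cfsg.Agent.Lib.Helper87Model
  Cfsg.Agent.Lib.Helper86Sub Cfsg.Agent.Lib.Helper89Fusion
open Cfsg.Agent.Lib.Helper87Fusion3 hiding pCore_normal pCore_isPGroup le_pCore

/-- the theorem for all systems with fewer than `n` maps -/
def HoldsC (p : ℕ) (Wf : Subgroup Ω → Subgroup Ω) (Adm : Subgroup Ω → Ω → Prop)
    (Cl : ∀ S : Subgroup Ω, FusionSystem S → Prop) (n : ℕ) : Prop :=
  ∀ (S : Subgroup Ω) [Finite S], IsPGroup p S → ∀ F : FusionSystem S, mu F < n → F.IsSaturated p →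
    Cl S F → ∀ z, Adm S z → FixA F (Wf S) z → Fix F z

theorem sysStep (D : WDataC p Wf Adm Cl) {S : Subgroup Ω} [Finite S] (hS : IsPGroup p S)
    {F : FusionSystem S} (hF : F.IsSaturated p) (hCl : Cl S F) (IH : HoldsC p Wf Adm Cl (mu F)) {z : Ω} (hAdm : Adm S z)
    {U : Subgroup Ω} (hUn : F.IsFullyNormalized U) (hnn : ¬ F.IsNormal U)
    (hA : FixA F (Wf (normalizerIn S U)) z) (hzU : z ∈ U) : FixA F U z := by
  have hUS := hUn.1
  have hE := normData_isNormalizerSystem F U hUS
  have hEsat := normalizer_saturated hS hF hUn hE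
  have hfin : Finite (normalizerIn S U) := finite_of_le (normalizerIn_le S U)
  have hlt : mu (normData F U hUS).toFusion < mu F := by
    apply mu_lt _ F (fun P f h => ((isMap_normalizer_iff hE).1 h).1)
    by_contra hcon
    push Not at hcon
    apply hnn
    rw [Helper87Fusion3.isNormal_iff]
    refine ⟨hUS, fun P f hf => ?_⟩
    obtain ⟨-, -, -, f', h⟩ := (isMap_normalizer_iff hE).1 (hcon P f hf)
    exact ⟨f', h⟩
  have h1 : Fix (normData F U hUS).toFusion z :=
    IH (normalizerIn S U) (hS.to_le (normalizerIn_le S U)) _ hlt hEsat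
      (D.cl_norm S hS F hF hCl U hUn _ hE) z
      (D.adm_mono S _ z (normalizerIn_le S U) (center_le_normalizerIn hUS) hAdm)
      (fun f hf hfi => hA f ((isMap_normalizer_iff hE).1 hf).1 hfi)
  intro f hf hfU
  exact h1 U f (normalizerSystem_autGroup hUS hE hf hfU) hzU

theorem caseA (D : WDataC p Wf Adm Cl) {S : Subgroup Ω} [Finite S] (hS : IsPGroup p S)
    {F : FusionSystem S} (hF : F.IsSaturated p) (hCl : Cl S F) (IH : HoldsC p Wf Adm Cl (mu F)) {z : Ω} (hAdm : Adm S z)
    (hA : FixA F (Wf S) z) {Q : Subgroup Ω} (hQ : F.IsNormal Q) (hzQ : z ∈ Q) : Fix F z := by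
  have hQS : Q ≤ S := hQ.1
  set C := centralizerIn S Q with hC
  have hCS : C ≤ S := centralizerIn_le S Q
  set R₀ := Q ⊔ C with hR₀
  have hR₀S : R₀ ≤ S := sup_le hQS hCS
  have hconjQ : ∀ s ∈ S, (fun x => s * x * s⁻¹) '' (Q : Set Ω) = (Q : Set Ω) := by
    intro s hs
    exact image_eq_of_card_le (isMap_conj F hQS hs) hQS
      (fun x hx => conj_mem_of_isNormal hQ hs hx) le_rfl
  have hconjC : ∀ s ∈ S, (fun x => s * x * s⁻¹) '' (C : Set Ω) = (C : Set Ω) := by
    intro s hs
    refine image_eq_of_card_le (isMap_conj F hCS hs) hCS (fun x hx => ?_) le_rfl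
    exact map_centralizerIn (isMap_conj F le_rfl hs) hQS (hconjQ s hs) (hCS hx) hx
  have hNQ : normalizerIn S Q = S := by
    apply le_antisymm (normalizerIn_le S Q)
    intro s hs
    exact ⟨hs, mem_normalizer_of_image_conj (hconjQ s hs)⟩
  have hNR₀ : normalizerIn S R₀ = S := by
    apply le_antisymm (normalizerIn_le S R₀)
    intro s hs
    refine ⟨hs, mem_normalizer_of_image_conj ?_⟩
    exact image_sup (isMap_conj F hR₀S hs) (hconjQ s hs) (hconjC s hs)
  have hQfn : F.IsFullyNormalized Q := isFullyNormalized_of_normalizerIn_eq F hQS hNQ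
  have hR₀fn : F.IsFullyNormalized R₀ := isFullyNormalized_of_normalizerIn_eq F hR₀S hNR₀
  obtain ⟨-, -, hQrec⟩ := saturated_fullyNormalized hS hF hQfn
  have hzR₀ : z ∈ R₀ := Subgroup.mem_sup_left hzQ
  by_cases hR₀n : F.IsNormal R₀
  · -- the constrained case
    refine D.loc S hS F hF hCl R₀ hR₀n ⟨hR₀S, fun Q' hQ' => ?_⟩ z hAdm hA
    obtain ⟨f, hf, hfQ'⟩ := isConj_iff.1 hQ'
    have hsc := normal_stronglyClosed hR₀n
    have h1 : f '' (R₀ : Set Ω) = (R₀ : Set Ω) :=
      image_eq_of_card_le hf hR₀S (fun x hx => StronglyClosed_mem hsc hf hx hx) le_rfl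
    have h2 : Q' = R₀ := SetLike.coe_injective (hfQ'.symm.trans h1)
    rw [h2]
    exact (centralizerIn_anti (le_sup_left : Q ≤ R₀)).trans le_sup_right
  · have hAR₀ : FixA F R₀ z := by
      apply sysStep D hS hF hCl IH hAdm hR₀fn hR₀n _ hzR₀
      rw [hNR₀]; exact hA
    intro P f hf hzP
    obtain ⟨f', hf', hf'P, hf'Q⟩ := (Helper87Fusion3.isNormal_iff.1 hQ).2 P f hf
    have hb : IsMap F Q f' := hf'.restrict le_sup_right
    obtain ⟨b', hb', hb'Q⟩ := extend_centralizing (C := C) hQrec hb hf'Q le_rfl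
    have hb'Qi : b' '' (Q : Set Ω) = (Q : Set Ω) :=
      (Set.image_congr (fun x hx => hb'Q x hx)).trans hf'Q
    have hb'R₀ : b' '' (R₀ : Set Ω) = (R₀ : Set Ω) := by
      refine image_eq_of_card_le hb' hR₀S ?_ le_rfl
      apply map_sup_mem hb'
      · intro x hx
        exact Subgroup.mem_sup_left (IsMap.mem_image hb'Qi hx)
      · intro x hx
        exact Subgroup.mem_sup_right
          (map_centralizerIn hb' le_sup_left hb'Qi (Subgroup.mem_sup_right hx) hx)
    have h1 := hAR₀ b' hb' hb'R₀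
    rw [← hf'P z hzP, ← hb'Q z hzQ, h1]

theorem claim2 (D : WDataC p Wf Adm Cl) {S : Subgroup Ω} [Finite S] (hS : IsPGroup p S)
    {F : FusionSystem S} (hF : F.IsSaturated p) (hCl : Cl S F) (IH : HoldsC p Wf Adm Cl (mu F)) {z : Ω} (hAdm : Adm S z)
    (hA : FixA F (Wf S) z) (n : ℕ)
    (IHbig : ∀ (R : Subgroup Ω) (f : Ω → Ω), n < Nat.card R → IsMap F R f → z ∈ R → f z = z) :
    ∀ (k : ℕ) (T : Subgroup Ω), T ≤ S → S ⊓ Subgroup.centralizer (S : Set Ω) ≤ T →
      (n < Nat.card T ∨ T = S) → Nat.card S - Nat.card T ≤ k → FixA F (Wf T) z := by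
  have hzZ := D.adm_center S z hAdm
  intro k
  induction k with
  | zero =>
    intro T hTS _ _ hk
    have hT : T = S := Subgroup.eq_of_le_of_card_ge hTS (by omega)
    rw [hT]; exact hA
  | succ k ih =>
    intro T hTS hZT hn hk
    by_cases hT : T = S
    · rw [hT]; exact hA
    have hn' : n < Nat.card T := hn.resolve_right hT
    have hfinT : Finite T := finite_of_le hTS
    have hTp : IsPGroup p T := hS.to_le hTS
    set U := Wf T with hU
    have hUT : U ≤ T := D.le T
    have hUS : U ≤ S := hUT.trans hTS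
    have hzT : z ∈ T := hZT hzZ
    have hzU : z ∈ U := D.center_le T hfinT hTp ⟨hzT, Subgroup.centralizer_le hTS hzZ.2⟩
    have hcard1 : Nat.card T < Nat.card (normalizerIn S T) :=
      Cfsg.Agent.Lib.Helper90Alperin.card_lt_card_normalizerIn hS hTS hT
    have hfin2 : Finite (normalizerIn S U) := finite_of_le (normalizerIn_le S U)
    have hcard2 : Nat.card (normalizerIn S T) ≤ Nat.card (normalizerIn S U) :=
      Subgroup.card_le_of_le (D.normalizerIn_le hS F hTS)
    obtain ⟨U', hconj, hfn⟩ := exists_fullyNormalized_conj F hUS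
    obtain ⟨-, hfa, hrec⟩ := saturated_fullyNormalized hS hF hfn
    obtain ⟨χ, hχ, hχU, hχN⟩ := exists_normalizer_map hS F U' U hfa hrec hconj
    have hzN : z ∈ normalizerIn S U := center_le_normalizerIn hUS hzZ
    have hχz : χ z = z := IHbig _ χ (by omega) hχ hzN
    have hU'S : U' ≤ S := hfn.1
    have hcard3 : Nat.card (normalizerIn S U) ≤ Nat.card (normalizerIn S U') :=
      card_le_of_isMap hχ (normalizerIn_le S U') hχN
    have hzU' : z ∈ U' := hχz ▸ IsMap.mem_image hχU hzU
    have hUN : U ≤ normalizerIn S U := le_normalizerIn hUS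
    by_cases hU'n : F.IsNormal U'
    · exact (caseA D hS hF hCl IH hAdm hA hU'n hzU').fixA hzU
    · have hcardS : Nat.card (normalizerIn S U') ≤ Nat.card S :=
        Subgroup.card_le_of_le (normalizerIn_le S U')
      have h1 : FixA F (Wf (normalizerIn S U')) z :=
        ih _ (normalizerIn_le S U') (center_le_normalizerIn hU'S) (Or.inl (by omega)) (by omega)
      have h2 : FixA F U' z := sysStep D hS hF hCl IH hAdm hfn hU'n h1 hzU'
      intro f hf hfU
      obtain ⟨σ, hσ, hσχ, hχσ, hσU⟩ := (hχ.restrict hUN).inv hχU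
      have h3 : IsMap F U' (fun y => χ (f (σ y))) :=
        (hσ.comp hf (fun y hy => IsMap.mem_image hσU hy)).comp (hχ.restrict hUN)
          (fun y hy => IsMap.mem_image hfU (IsMap.mem_image hσU hy))
      have h4 : (fun y => χ (f (σ y))) '' (U' : Set Ω) = (U' : Set Ω) := by
        have e : (fun y => χ (f (σ y))) '' (U' : Set Ω) = χ '' (f '' (σ '' (U' : Set Ω))) := by
          rw [Set.image_image, Set.image_image]
        rw [e, hσU, hfU, hχU]
      have h5 : χ (f (σ z)) = z := h2 _ h3 h4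
      have h6 : σ z = z := by
        have := hσχ z hzU
        rwa [hχz] at this
      rw [h6] at h5
      exact hχ.inj (hUN (IsMap.mem_image hfU hzU)) hzN (h5.trans hχz.symm)

theorem step (D : WDataC p Wf Adm Cl) {S : Subgroup Ω} [Finite S] (hS : IsPGroup p S)
    {F : FusionSystem S} (hF : F.IsSaturated p) (hCl : Cl S F) (IH : HoldsC p Wf Adm Cl (mu F)) {z : Ω} (hAdm : Adm S z)
    (hA : FixA F (Wf S) z) : Fix F z := by
  have hzZ := D.adm_center S z hAdm
  let C : Subgroup Ω → (Ω → Ω) → Prop := fun P f => ∀ x ∈ P, (f x = z ↔ x = z)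
  have hcongr : ∀ (P : Subgroup Ω) (f g : Ω → Ω), (∀ x ∈ P, f x = g x) → C P f → C P g :=
    fun P f g h hC x hx => by rw [← h x hx]; exact hC x hx
  have hconj : ∀ (P : Subgroup Ω) (g : Ω), P ≤ S → g ∈ S → C P (fun x => g * x * g⁻¹) := by
    intro P g _ hg x _
    have hgz : g * z * g⁻¹ = z := by
      have := hzZ.2 g hg
      rw [this]; group
    constructor
    · intro h
      have h' : g * x * g⁻¹ = g * z * g⁻¹ := h.trans hgz.symm
      exact mul_left_cancel (mul_right_cancel h')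
    · rintro rfl; exact hgz
  have hcomp : ∀ (P Q : Subgroup Ω) (f g : Ω → Ω), IsMap F P f → IsMap F Q g → (∀ x ∈ P, f x ∈ Q) →
      C P f → C Q g → C P (fun x => g (f x)) :=
    fun P Q f g _ _ h h1 h2 x hx => (h2 (f x) (h x hx)).trans (h1 x hx)
  have hinv : ∀ (P Q : Subgroup Ω) (f g : Ω → Ω), IsMap F P f → f '' (P : Set Ω) = (Q : Set Ω) →
      IsMap F Q g → (∀ x ∈ P, g (f x) = x) → C P f → C Q g := by
    intro P Q f g _ hQ _ hgf h1 y hy
    obtain ⟨x, hx, rfl⟩ := IsMap.exists_of_mem_image hQ hy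
    rw [hgf x hx]; exact (h1 x hx).symm
  have key : ∀ (P : Subgroup Ω) (f : Ω → Ω), IsMap F P f →
      IsMap (subsystem F C hcongr hconj hcomp hinv) P f := by
    apply Cfsg.Agent.Lib.Helper90Alperin.alperin_induction hS F hF
    intro P hfa hrec IHbig a ha haP
    rw [isMap_subsystem_iff]
    refine ⟨ha, ?_⟩
    by_cases hzP : z ∈ P
    swap
    · intro x hx
      constructor
      · intro h; exact absurd (h ▸ IsMap.mem_image haP hx) hzP
      · rintro rfl; exact absurd hx hzP
    suffices haz : a z = z by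
      intro x hx
      constructor
      · intro h; exact ha.inj hx hzP (h.trans haz.symm)
      · rintro rfl; exact haz
    have hPfn := fullyNormalized_of_automized_receptive hS F P hfa hrec
    have hPS : P ≤ S := hfa.1
    by_cases hPn : F.IsNormal P
    · exact caseA D hS hF hCl IH hAdm hA hPn hzP P a ha hzP
    · refine sysStep D hS hF hCl IH hAdm hPfn hPn ?_ hzP a ha haP
      apply claim2 D hS hF hCl IH hAdm hA (Nat.card P) ?_ _ _ (normalizerIn_le S P)
        (center_le_normalizerIn hPS) ?_ le_rfl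
      · intro R f hlt hf hzR
        exact (((isMap_subsystem_iff F C hcongr hconj hcomp hinv).1 (IHbig R f hlt hf)).2 z hzR).2 rfl
      · by_cases hPS' : P = S
        · right
          rw [hPS']; exact normalizerIn_self S
        · left
          exact Cfsg.Agent.Lib.Helper90Alperin.card_lt_card_normalizerIn hS hPS hPS'
  intro P f hf hzP
  exact (((isMap_subsystem_iff F C hcongr hconj hcomp hinv).1 (key P f hf)).2 z hzP).2 rfl

/-- **Control of weak closure of elements**: the main induction. -/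
theorem main (D : WDataC p Wf Adm Cl) : ∀ n : ℕ, HoldsC p Wf Adm Cl n := by
  intro n
  induction n using Nat.strong_induction_on with
  | _ n ih =>
    intro S _ hS F hlt hF hCl z hAdm hA
    exact step D hS hF hCl (ih (mu F) hlt) hAdm hA

theorem fix_of_fixA (D : WDataC p Wf Adm Cl) {S : Subgroup Ω} [Finite S] (hS : IsPGroup p S)
    {F : FusionSystem S} (hF : F.IsSaturated p) (hCl : Cl S F) {z : Ω} (hAdm : Adm S z)
    (hA : FixA F (Wf S) z) : Fix F z :=
  main D (mu F + 1) S hS F (Nat.lt_succ_self _) hF hCl z hAdm hA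

end induction

end Cfsg.Agent.Lib.Helper37FusWCC
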