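import Mathlib
import Cfsg.Agent.Lib.Helper44ODefs

set_option autoImplicit false

/-! PROJECT 46, piece `hcs`: abstract facts on `hc`. -/

namespace Cfsg.Agent.Lib.Helper37Ohcs

open Matrix Cfsg Cfsg.Agent.Lib.Helper44Wt Cfsg.Agent.Lib.Helper44Lam
  Cfsg.Agent.Lib.Helper44SLDefs Cfsg.Agent.Lib.Helper44ODefs

variable {G : Type*} [Group G] {A : Type*} [AddCommGroup A] [Fintype A] {Γ : Type*} [Group Γ]

theorem hc_sum (u : Multiplicative A →* G) (j : Γ →* G) (χ : G → ℂ) (γ : Γ) :
    ∑ l : AddChar A ℂ, hc u l j χ γ = χ (j γ) := by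
  classical
  unfold hc
  have hq : (Fintype.card A : ℂ) ≠ 0 := by exact_mod_cast Fintype.card_ne_zero
  have h1 : ∀ l : AddChar A ℂ, (Fintype.card A : ℂ)⁻¹ *
      (∑ a : A, χ (u (Multiplicative.ofAdd a) * j γ) * (starRingEnd ℂ) (l a)) =
      (Fintype.card A : ℂ)⁻¹ *
      ∑ a : A, χ (u (Multiplicative.ofAdd a) * j γ) * l (0 - a) := by
    intro l
    congr 1
    apply Finset.sum_congr rfl
    intro a _
    rw [zero_sub, AddChar.map_neg_eq_conj]
  simp only [h1]
  rw [← Finset.mul_sum, Finset.sum_comm]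
  simp only [← Finset.mul_sum, AddChar.sum_apply_eq_ite, sub_eq_zero]
  simp only [mul_ite, mul_zero]
  rw [Finset.sum_ite_eq Finset.univ 0]
  simp only [Finset.mem_univ, if_true, ofAdd_zero, map_one, one_mul]
  field_simp

theorem hc_ker (u : Multiplicative A →* G) (l : AddChar A ℂ) (j : Γ →* G) (χ : G → ℂ) (γ : Γ)
    (a0 : A) (h0 : u (Multiplicative.ofAdd a0) = 1) (hl : l a0 ≠ 1) : hc u l j χ γ = 0 := by
  have h1 : hc u l j χ γ = hc u l j χ γ * (starRingEnd ℂ) (l a0) := by
    unfold hc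
    rw [mul_assoc, Finset.sum_mul]
    congr 1
    rw [← Equiv.sum_comp (Equiv.addRight a0)
      (fun a => χ (u (Multiplicative.ofAdd a) * j γ) * (starRingEnd ℂ) (l a))]
    apply Finset.sum_congr rfl
    intro a _
    simp only [Equiv.coe_addRight]
    rw [ofAdd_add, map_mul, h0, mul_one, AddChar.map_add_eq_mul, map_mul]
    ring
  by_contra hne
  have h2 : (starRingEnd ℂ) (l a0) = 1 := by
    have : hc u l j χ γ * ((starRingEnd ℂ) (l a0) - 1) = 0 := by linear_combination -h1
    rcases mul_eq_zero.mp this with h | h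
    · exact absurd h hne
    · linear_combination h
  have := congrArg (starRingEnd ℂ) h2
  exact hl (by simpa using this)

theorem hc_moved (u : Multiplicative A →* G) (l : AddChar A ℂ) (j : Γ →* G) (χ : G → ℂ)
    (hχ : IsClassFunction G χ) (γ : Γ) (b b' : A)
    (hσ : j γ * u (Multiplicative.ofAdd b) * (j γ)⁻¹ = u (Multiplicative.ofAdd b'))
    (hb : l b' ≠ l b) : hc u l j χ γ = 0 := by
  -- `χ (u (a + b' - b) * j γ) = χ (u a * j γ)`
  have key : ∀ a : A, χ (u (Multiplicative.ofAdd (a + (b' - b))) * j γ) =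
      χ (u (Multiplicative.ofAdd a) * j γ) := by
    intro a
    have e1 : u (Multiplicative.ofAdd (a + (b' - b))) * j γ =
        (u (Multiplicative.ofAdd b))⁻¹ * (u (Multiplicative.ofAdd a) * j γ) *
          ((u (Multiplicative.ofAdd b))⁻¹)⁻¹ := by
      have e2 : a + (b' - b) = -b + a + b' := by abel
      rw [e2, ofAdd_add, ofAdd_add, map_mul, map_mul, ← hσ, ofAdd_neg, map_inv, inv_inv]
      group
    rw [e1, hχ]
  have h1 : hc u l j χ γ = hc u l j χ γ * (starRingEnd ℂ) (l (b' - b)) := by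
    unfold hc
    rw [mul_assoc, Finset.sum_mul]
    congr 1
    rw [← Equiv.sum_comp (Equiv.addRight (b' - b))
      (fun a => χ (u (Multiplicative.ofAdd a) * j γ) * (starRingEnd ℂ) (l a))]
    apply Finset.sum_congr rfl
    intro a _
    simp only [Equiv.coe_addRight]
    rw [key, AddChar.map_add_eq_mul, map_mul]
    ring
  by_contra hne
  have h2 : (starRingEnd ℂ) (l (b' - b)) = 1 := by
    have : hc u l j χ γ * ((starRingEnd ℂ) (l (b' - b)) - 1) = 0 := by linear_combination -h1
    rcases mul_eq_zero.mp this with h | h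
    · exact absurd h hne
    · linear_combination h
  have h3 : l (b' - b) = 1 := by
    have := congrArg (starRingEnd ℂ) h2
    simpa using this
  apply hb
  have h4 : l b' = l (b' - b) * l b := by
    rw [← AddChar.map_add_eq_mul, sub_add_cancel]
  rw [h4, h3, one_mul]

theorem hc_one (u : Multiplicative A →* G) (l : AddChar A ℂ) (j : Γ →* G) (χ : G → ℂ) :
    hc u l j χ 1 = wt u χ l := by
  unfold hc wt
  simp only [map_one, mul_one]

theorem char_eq_zero (θ : Γ → ℂ) (hθ : IsCharacter Γ θ) (h : θ 1 = 0) (γ : Γ) : θ γ = 0 := by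
  obtain ⟨n, ρ, rfl⟩ := hθ
  have hn : n = 0 := by
    have : (n : ℂ) = 0 := by simpa using h
    exact_mod_cast this
  subst hn
  unfold Representation.character
  have : ρ γ = 0 := by
    ext v i
    exact i.elim0
  rw [this, map_zero]

end Cfsg.Agent.Lib.Helper37Ohcs
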