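import Mathlib
import Cfsg.Agent.Lib.Helper44SLDefs

set_option autoImplicit false

/-! PROJECT 44, piece `hc`: the trace on a weight space is a character. -/

namespace Cfsg.Agent.Lib.Helper40SLhc

open Matrix Cfsg Cfsg.Agent.Lib.Helper44Wt Cfsg.Agent.Lib.Helper44SLDefs

theorem hc_char {G : Type*} [Group G] {A : Type*} [AddCommGroup A] [Fintype A]
    {Γ : Type*} [Group Γ] (χ : G → ℂ) (hχ : IsCharacter G χ) (u : Multiplicative A →* G)
    (l : AddChar A ℂ) (j : Γ →* G)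
    (hj : ∀ γ : Γ, ∃ σ : A ≃ A,
      (∀ a, j γ * u (Multiplicative.ofAdd a) * (j γ)⁻¹ = u (Multiplicative.ofAdd (σ a))) ∧
      ∀ a, l (σ a) = l a) :
    IsCharacter Γ (hc u l j χ) := by
  classical
  obtain ⟨n, ρ, rfl⟩ := hχ
  have hq : (Fintype.card A : ℂ) ≠ 0 := by exact_mod_cast Fintype.card_ne_zero
  obtain ⟨e, he⟩ : ∃ e : (Fin n → ℂ) →ₗ[ℂ] (Fin n → ℂ), e = (Fintype.card A : ℂ)⁻¹ •
      ∑ a : A, (starRingEnd ℂ) (l a) • ρ (u (Multiplicative.ofAdd a)) := ⟨_, rfl⟩
  -- `ρ (u b) ∘ e = l b • e`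
  have h0 : ∀ b : A, ρ (u (Multiplicative.ofAdd b)) *
      (∑ a : A, (starRingEnd ℂ) (l a) • ρ (u (Multiplicative.ofAdd a))) =
      l b • ∑ a : A, (starRingEnd ℂ) (l a) • ρ (u (Multiplicative.ofAdd a)) := by
    intro b
    rw [Finset.mul_sum, Finset.smul_sum]
    rw [← Equiv.sum_comp (Equiv.addLeft b)
      (fun a => l b • (starRingEnd ℂ) (l a) • ρ (u (Multiplicative.ofAdd a)))]
    apply Finset.sum_congr rfl
    intro a _
    rw [mul_smul_comm, ← map_mul, ← map_mul, ← ofAdd_add, Equiv.coe_addLeft, smul_smul]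
    congr 1
    rw [AddChar.map_add_eq_mul, map_mul, ← mul_assoc, ← AddChar.map_neg_eq_conj l b,
      ← AddChar.map_add_eq_mul, add_neg_cancel, AddChar.map_zero_eq_one, one_mul]
  have h1 : ∀ b : A, ρ (u (Multiplicative.ofAdd b)) * e = l b • e := by
    intro b
    rw [he, mul_smul_comm, h0, smul_comm]
  have h2 : e * e = e := by
    have : ∀ a : A, ((starRingEnd ℂ) (l a) • ρ (u (Multiplicative.ofAdd a))) * e = e := by
      intro a
      rw [smul_mul_assoc, h1, smul_smul, ← AddChar.map_neg_eq_conj,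
        ← AddChar.map_add_eq_mul, neg_add_cancel, AddChar.map_zero_eq_one, one_smul]
    have h2' : ((Fintype.card A : ℂ)⁻¹ •
      ∑ a : A, (starRingEnd ℂ) (l a) • ρ (u (Multiplicative.ofAdd a))) * e = e := by
      rw [smul_mul_assoc, Finset.sum_mul, Finset.sum_congr rfl (fun a _ => this a),
        Finset.sum_const, Finset.card_univ,
        ← Nat.cast_smul_eq_nsmul ℂ, smul_smul, inv_mul_cancel₀ hq, one_smul]
    rw [← he] at h2'
    exact h2'
  have h3 : ∀ γ : Γ, ρ (j γ) * e = e * ρ (j γ) := by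
    intro γ
    obtain ⟨σ, hσ1, hσ2⟩ := hj γ
    rw [he, mul_smul_comm, smul_mul_assoc, Finset.mul_sum, Finset.sum_mul]
    congr 1
    rw [← Equiv.sum_comp σ (fun a => ((starRingEnd ℂ) (l a) • ρ (u (Multiplicative.ofAdd a))) * ρ (j γ))]
    apply Finset.sum_congr rfl
    intro a _
    rw [mul_smul_comm, smul_mul_assoc, hσ2, ← hσ1, ← map_mul, ← map_mul]
    congr 2
    group
  -- the subspace
  let W : Submodule ℂ (Fin n → ℂ) := LinearMap.range e
  have hW : ∀ γ : Γ, ∀ x ∈ W, ρ (j γ) x ∈ W := by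
    rintro γ x ⟨y, rfl⟩
    refine ⟨ρ (j γ) y, ?_⟩
    have := congrArg (fun f : (Fin n → ℂ) →ₗ[ℂ] (Fin n → ℂ) => f y) (h3 γ)
    exact this.symm
  have heW : ∀ x ∈ W, e x = x := by
    rintro x ⟨y, rfl⟩
    exact congrArg (fun f : (Fin n → ℂ) →ₗ[ℂ] (Fin n → ℂ) => f y) h2
  let τ : Representation ℂ Γ W :=
    { toFun := fun γ => (ρ (j γ)).restrict (hW γ)
      map_one' := by
        ext x
        simp
      map_mul' := by
        intro a b
        ext x
        simp }
  have key : τ.character = hc u l j ρ.character := by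
    funext γ
    have hf : ∀ x, (e * ρ (j γ)) x ∈ W := fun x => ⟨ρ (j γ) x, rfl⟩
    have h4 := LinearMap.trace_restrict_eq_of_forall_mem W (e * ρ (j γ)) hf
    have h5 : (e * ρ (j γ)).restrict (fun x _ => hf x) = τ γ := by
      ext x
      show (e (ρ (j γ) x)) _ = (ρ (j γ) x) _
      rw [heW _ (hW γ x x.2)]
    rw [h5] at h4
    show LinearMap.trace ℂ W (τ γ) = _
    rw [h4, he, smul_mul_assoc, map_smul, Finset.sum_mul, map_sum]
    unfold hc
    rw [smul_eq_mul]
    congr 1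
    apply Finset.sum_congr rfl
    intro a _
    rw [smul_mul_assoc, map_smul, ← map_mul, smul_eq_mul, mul_comm]
    rfl
  rw [← key]
  exact Cfsg.Agent.Lib.Helper4Char.isCharacter_of_rep τ

end Cfsg.Agent.Lib.Helper40SLhc
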