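import Mathlib
import Cfsg.Agent.Lib.Helper44ODefs
import Cfsg.Agent.Lib.Helper40SLhc
import Cfsg.Agent.Lib.Helper37Ohcs

set_option autoImplicit false

/-! PROJECT 46, piece `muone`. -/

namespace Cfsg.Agent.Lib.Helper37Omuone

open Matrix Cfsg Cfsg.Agent.Lib.Helper44Wt Cfsg.Agent.Lib.Helper44Lam
  Cfsg.Agent.Lib.Helper44SLDefs Cfsg.Agent.Lib.Helper44ODefs

variable {F : Type*} [Field F] [Fintype F] [DecidableEq F]

variable {G : Type*} [Group G] {A : Type*} [AddCommGroup A] [Fintype A]

omit [Fintype F] [DecidableEq F] in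
theorem mu_one (χ : G → ℂ) (hχ : IsCharacter G χ) (u : Multiplicative A →* G) (l : AddChar A ℂ)
    (j : Multiplicative F →* G)
    (hj : ∀ γ : Multiplicative F, ∃ σ : A ≃ A,
      (∀ a, j γ * u (Multiplicative.ofAdd a) * (j γ)⁻¹ = u (Multiplicative.ofAdd (σ a))) ∧
      ∀ a, l (σ a) = l a)
    (hw : wt u χ l = 1)
    (h : G) (τ : A ≃ A)
    (hτ : ∀ a, h * u (Multiplicative.ofAdd a) * h⁻¹ = u (Multiplicative.ofAdd (τ a)))
    (hlτ : ∀ a, l (τ a) = l a)
    (c : F) (hc1 : c ≠ 1)
    (hhj : ∀ s : F, h * j (Multiplicative.ofAdd s) = j (Multiplicative.ofAdd (c * s)) * h)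
    (s : F) : hc u l j χ (Multiplicative.ofAdd s) = 1 := by
  have hcl : IsClassFunction G χ := Cfsg.Agent.Lib.Helper4Char.IsCharacter.isClassFunction hχ
  have hθ : IsCharacter (Multiplicative F) (hc u l j χ) :=
    Cfsg.Agent.Lib.Helper40SLhc.hc_char χ hχ u l j hj
  have h1 : hc u l j χ 1 = 1 := by
    rw [Cfsg.Agent.Lib.Helper37Ohcs.hc_one, hw]
  -- multiplicativity
  have hmul : ∀ x y : Multiplicative F, hc u l j χ (x * y) = hc u l j χ x * hc u l j χ y := by
    obtain ⟨n, ρ, hρ⟩ := hθ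
    have hn : n = 1 := by
      have : (n : ℂ) = 1 := by
        rw [← hρ] at h1
        simpa using h1
      exact_mod_cast this
    subst hn
    intro x y
    rw [← hρ]
    exact Cfsg.Agent.Lib.Helper82Linear.char_mul_of_finrank_one ρ (by simp) x y
  -- invariance under `c`
  have hinv : ∀ t : F, hc u l j χ (Multiplicative.ofAdd (c * t)) =
      hc u l j χ (Multiplicative.ofAdd t) := by
    intro t
    unfold hc
    congr 1
    rw [← Equiv.sum_comp τ
      (fun a => χ (u (Multiplicative.ofAdd a) * j (Multiplicative.ofAdd (c * t))) *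
        (starRingEnd ℂ) (l a))]
    apply Finset.sum_congr rfl
    intro a _
    rw [hlτ]
    congr 1
    have e : u (Multiplicative.ofAdd (τ a)) * j (Multiplicative.ofAdd (c * t)) =
        h * (u (Multiplicative.ofAdd a) * j (Multiplicative.ofAdd t)) * h⁻¹ := by
      have e2 : j (Multiplicative.ofAdd (c * t)) = h * j (Multiplicative.ofAdd t) * h⁻¹ := by
        rw [hhj, mul_inv_cancel_right]
      rw [← hτ, e2]
      group
    rw [e, hcl]
  have hne : ∀ t : F, hc u l j χ (Multiplicative.ofAdd t) ≠ 0 := by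
    intro t h0
    have := hmul (Multiplicative.ofAdd t) (Multiplicative.ofAdd (-t))
    rw [← ofAdd_add, add_neg_cancel, ofAdd_zero, h1, h0, zero_mul] at this
    exact one_ne_zero this
  have hone : ∀ t : F, hc u l j χ (Multiplicative.ofAdd ((c - 1) * t)) = 1 := by
    intro t
    have e := hmul (Multiplicative.ofAdd ((c - 1) * t)) (Multiplicative.ofAdd t)
    rw [← ofAdd_add] at e
    have e2 : (c - 1) * t + t = c * t := by ring
    rw [e2, hinv] at e
    have := hne t
    field_simp at e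
    exact e.symm
  have hc0 : c - 1 ≠ 0 := sub_ne_zero.mpr hc1
  have := hone ((c - 1)⁻¹ * s)
  rwa [mul_inv_cancel_left₀ hc0] at this

end Cfsg.Agent.Lib.Helper37Omuone
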