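import Mathlib
import Cfsg.Agent.Lib.Helper44ODefs
import Cfsg.Agent.Lib.Helper40SLhc
import Cfsg.Agent.Lib.Helper37Ohcs
import Cfsg.Agent.Lib.Helper37Omuone
import Cfsg.Agent.Lib.Helper24Otorus

set_option autoImplicit false

/-! PROJECT 46, piece `chix`: the value at a Levi transvection. -/

namespace Cfsg.Agent.Lib.Helper37Ochix

open Matrix Cfsg Cfsg.Agent.Lib.Helper44Wt Cfsg.Agent.Lib.Helper44Lam
  Cfsg.Agent.Lib.Helper44SLDefs Cfsg.Agent.Lib.Helper44ODefs
  Cfsg.Agent.Lib.Helper37Ohcs Cfsg.Agent.Lib.Helper37Omuone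

variable {F : Type*} [Field F]

section LA

variable {n : ℕ}

/-- congruence by an element of `sqGL` as a permutation of the matrices -/
def congE (A : sqGL n F) : Matrix (Fin n) (Fin n) F ≃ Matrix (Fin n) (Fin n) F where
  toFun X := mt A * X * (mt A)ᵀ
  invFun X := mt A⁻¹ * X * (mt A⁻¹)ᵀ
  left_inv X := by
    have h1 : mt A⁻¹ * mt A = 1 := coe_inv_mul' (A : GL (Fin n) F)
    have h2 : (mt A)ᵀ * (mt A⁻¹)ᵀ = 1 := by rw [← Matrix.transpose_mul, h1, Matrix.transpose_one]
    calc mt A⁻¹ * (mt A * X * (mt A)ᵀ) * (mt A⁻¹)ᵀ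
        = (mt A⁻¹ * mt A) * X * ((mt A)ᵀ * (mt A⁻¹)ᵀ) := by simp only [Matrix.mul_assoc]
      _ = X := by rw [h1, h2, Matrix.one_mul, Matrix.mul_one]
  right_inv X := by
    have h1 : mt A * mt A⁻¹ = 1 := coe_mul_inv' (A : GL (Fin n) F)
    have h2 : (mt A⁻¹)ᵀ * (mt A)ᵀ = 1 := by rw [← Matrix.transpose_mul, h1, Matrix.transpose_one]
    calc mt A * (mt A⁻¹ * X * (mt A⁻¹)ᵀ) * (mt A)ᵀ
        = (mt A * mt A⁻¹) * X * ((mt A⁻¹)ᵀ * (mt A)ᵀ) := by simp only [Matrix.mul_assoc]
      _ = X := by rw [h1, h2, Matrix.one_mul, Matrix.mul_one]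

theorem congE_apply (A : sqGL n F) (X : Matrix (Fin n) (Fin n) F) :
    congE A X = mt A * X * (mt A)ᵀ := rfl

theorem lam_cong [Fintype F] (ψ : AddChar F ℂ) (C B X : Matrix (Fin n) (Fin n) F) :
    lam ψ C (B * X * Bᵀ) = lam ψ (Bᵀ * C * B) X := by
  rw [lam_apply, lam_apply]
  congr 1
  rw [← Matrix.mul_assoc, Matrix.trace_mul_comm, ← Matrix.mul_assoc, ← Matrix.mul_assoc]

theorem lam_add [Fintype F] (ψ : AddChar F ℂ) (C D X : Matrix (Fin n) (Fin n) F) :
    lam ψ (C + D) X = lam ψ C X * lam ψ D X := by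
  rw [lam_apply, lam_apply, lam_apply, Matrix.add_mul, Matrix.trace_add, AddChar.map_add_eq_mul]

theorem isAltM_alt' (u v : Fin n → F) : IsAltM (alt u v) := by
  constructor
  · ext i j
    simp only [Matrix.transpose_apply, Matrix.neg_apply, alt_apply]
    ring
  · intro i
    rw [alt_apply]
    ring

theorem isAltM_of_mem_O2 {C : Matrix (Fin n) (Fin n) F} (hC : C ∈ O2) : IsAltM C := by
  obtain ⟨u, v, -, rfl⟩ := hC
  exact isAltM_alt' u v

theorem zero_not_mem_O2 : (0 : Matrix (Fin n) (Fin n) F) ∉ O2 := by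
  rintro ⟨u, v, hli, h0⟩
  rw [LinearIndependent.pair_iff] at hli
  have hu : u ≠ 0 := by
    rintro rfl
    have := hli 1 0 (by simp)
    exact one_ne_zero this.1
  obtain ⟨i, hi⟩ : ∃ i, u i ≠ 0 := by
    by_contra hcon
    push Not at hcon
    exact hu (funext hcon)
  have h1 := hli (v i) (-(u i)) (by
    ext j
    have := congrFun (congrFun h0 i) j
    rw [alt_apply] at this
    simp only [Pi.add_apply, Pi.smul_apply, smul_eq_mul, Pi.zero_apply, Matrix.zero_apply] at this ⊢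
    linear_combination this)
  exact hi (neg_eq_zero.mp h1.2)

/-- a matrix which is not alternating is detected by a symmetric matrix -/
theorem exists_symm [Fintype F] (ψ : AddChar F ℂ) (hψ : ψ.IsPrimitive)
    (C : Matrix (Fin n) (Fin n) F) (hC : ¬ IsAltM C) :
    ∃ X : Matrix (Fin n) (Fin n) F, Xᵀ = X ∧ lam ψ C X ≠ 1 := by
  by_contra hcon
  push Not at hcon
  apply hC
  have key : ∀ a : F, (∀ t : F, ψ (a * t) = 1) → a = 0 := by
    intro a ha
    by_contra hne
    apply hψ (a := a) hne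
    ext t
    rw [AddChar.mulShift_apply, ha]
    simp
  have hd : ∀ i, C i i = 0 := by
    intro i
    apply key
    intro t
    have := hcon (Matrix.single i i t) (by simp)
    rw [lam_apply, Matrix.trace_mul_comm, Matrix.trace_single_mul] at this
    rw [mul_comm]
    simpa using this
  refine ⟨?_, hd⟩
  ext i j
  rw [Matrix.transpose_apply, Matrix.neg_apply, eq_neg_iff_add_eq_zero]
  apply key
  intro t
  have := hcon (Matrix.single i j t + Matrix.single j i t) (by
    rw [Matrix.transpose_add, Matrix.transpose_single, Matrix.transpose_single, add_comm])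
  rw [lam_apply, Matrix.trace_mul_comm, Matrix.add_mul, Matrix.trace_add,
    Matrix.trace_single_mul, Matrix.trace_single_mul] at this
  have e : (C j i + C i j) * t = t • C j i + t • C i j := by
    simp only [smul_eq_mul]; ring
  rw [e]
  simpa using this

end LA

variable {k : ℕ}

/-- the key formula `xᵀ C x = C + s • alt (C e₀) e₁`. -/
theorem x01_cong (C : Matrix (Fin (k + 2)) (Fin (k + 2)) F) (hC : IsAltM C) (s : F) :
    (Matrix.transvection 0 1 s)ᵀ * C * Matrix.transvection 0 1 s =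
      C + s • alt (C *ᵥ ee 0) (ee 1) := by
  obtain ⟨h1, h2⟩ := hC
  have h3 : ∀ i j, C j i = - C i j := fun i j => by
    have := congrFun (congrFun h1 i) j
    simpa using this
  have e0 : ∀ i, (C *ᵥ ee 0) i = C i 0 := by
    intro i
    simp [ee]
  ext i j
  simp only [Matrix.transvection, Matrix.transpose_add, Matrix.transpose_one,
    Matrix.transpose_single, Matrix.add_mul, Matrix.mul_add, Matrix.one_mul, Matrix.mul_one,
    Matrix.add_apply, Matrix.smul_apply, alt_apply, e0, smul_eq_mul]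
  have a1 : ((single 1 0 s : Matrix (Fin (k + 2)) (Fin (k + 2)) F) * C) i j = if i = 1 then s * C 0 j else 0 := by
    by_cases hi : i = 1
    · subst hi
      simp
    · rw [if_neg hi, Matrix.single_mul_apply_of_ne _ _ _ _ _ hi]
  have a2 : ∀ (D : Matrix (Fin (k + 2)) (Fin (k + 2)) F),
      (D * (single 0 1 s : Matrix (Fin (k + 2)) (Fin (k + 2)) F)) i j = if j = 1 then D i 0 * s else 0 := by
    intro D
    by_cases hj : j = 1
    · subst hj
      simp
    · rw [if_neg hj, Matrix.mul_single_apply_of_ne _ _ _ _ _ hj]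
  have a3 : ((single 1 0 s : Matrix (Fin (k + 2)) (Fin (k + 2)) F) * C) i 0 = 0 := by
    by_cases hi : i = 1
    · subst hi
      simp [h2]
    · rw [Matrix.single_mul_apply_of_ne _ _ _ _ _ hi]
  have a4 : ∀ m : Fin (k + 2), (ee 1 : Fin (k + 2) → F) m = if m = 1 then 1 else 0 := by
    intro m
    simp [ee, Pi.single_apply]
  rw [a1, a2, a2, a3, a4, a4, h3 j 0]
  split_ifs <;> ring

section main

variable [Fintype F] [DecidableEq F] {G : Type*} [Group G]

theorem chi_x_core (k : ℕ) (ψ : AddChar F ℂ) (hψ : ψ.IsPrimitive)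
    (u : Multiplicative (Matrix (Fin (k + 2)) (Fin (k + 2)) F) →* G) (g : sqGL (k + 2) F →* G)
    (χ : G → ℂ) (hχ : IsCharacter G χ)
    (hrel : ∀ (A : sqGL (k + 2) F) (X : Matrix (Fin (k + 2)) (Fin (k + 2)) F),
      g A * u (Multiplicative.ofAdd X) = u (Multiplicative.ofAdd (mt A * X * (mt A)ᵀ)) * g A)
    (hker : ∀ X : Matrix (Fin (k + 2)) (Fin (k + 2)) F, Xᵀ = X → u (Multiplicative.ofAdd X) = 1)
    (hw1 : ∀ C, C ∈ O2 → wt u χ (lam ψ C) = 1)
    (hw0 : ∀ C, C ∉ O2 → C ≠ 0 → wt u χ (lam ψ C) = 0)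
    (htorus : ∀ C : Matrix (Fin (k + 2)) (Fin (k + 2)) F, C ∈ O2 →
      alt (C *ᵥ ee 0) (ee 1) = 0 →
      ∃ (h : sqGL (k + 2) F) (c : F), c ≠ 1 ∧ (mt h)ᵀ * C * mt h = C ∧
      ∀ s : F, h * slToSq (k + 2) F (x01 k F (Multiplicative.ofAdd s)) =
        slToSq (k + 2) F (x01 k F (Multiplicative.ofAdd (c * s))) * h) :
    χ (g (slToSq (k + 2) F (x01 k F (Multiplicative.ofAdd 1)))) =
      hc u 0 (g.comp (slToSq (k + 2) F)) χ (x01 k F (Multiplicative.ofAdd 1)) +
      (Nat.card {C : Matrix (Fin (k + 2)) (Fin (k + 2)) F //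
        C ∈ O2 ∧ alt (C *ᵥ ee 0) (ee 1) = 0} : ℂ) := by
  classical
  have hcl : IsClassFunction G χ := Cfsg.Agent.Lib.Helper4Char.IsCharacter.isClassFunction hχ
  set j : Matrix.SpecialLinearGroup (Fin (k + 2)) F →* G := g.comp (slToSq (k + 2) F) with hj
  set x : Matrix.SpecialLinearGroup (Fin (k + 2)) F := x01 k F (Multiplicative.ofAdd 1) with hx
  -- conjugation relation
  have hconj : ∀ (A : sqGL (k + 2) F) (X : Matrix (Fin (k + 2)) (Fin (k + 2)) F),
      g A * u (Multiplicative.ofAdd X) * (g A)⁻¹ = u (Multiplicative.ofAdd (congE A X)) := by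
    intro A X
    rw [hrel, mul_inv_cancel_right, congE_apply]
  have hmt : ∀ s : F, mt (slToSq (k + 2) F (x01 k F (Multiplicative.ofAdd s))) =
      Matrix.transvection 0 1 s := fun s => rfl
  -- step 1
  have step1 : χ (j x) = ∑ C : Matrix (Fin (k + 2)) (Fin (k + 2)) F, hc u (lam ψ C) j χ x := by
    rw [← hc_sum u j χ x]
    exact (Function.Bijective.sum_comp ⟨lam_injective ψ hψ, lam_surjective ψ hψ⟩
      (fun l => hc u l j χ x)).symm
  -- the root group fixes `lam ψ C` when `C` is alternating and fixed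
  have hfixall : ∀ C : Matrix (Fin (k + 2)) (Fin (k + 2)) F, IsAltM C →
      alt (C *ᵥ ee 0) (ee 1) = 0 → ∀ γ : Multiplicative F,
      ∃ σ : Matrix (Fin (k + 2)) (Fin (k + 2)) F ≃ Matrix (Fin (k + 2)) (Fin (k + 2)) F,
      (∀ a, (j.comp (x01 k F)) γ * u (Multiplicative.ofAdd a) * ((j.comp (x01 k F)) γ)⁻¹ =
        u (Multiplicative.ofAdd (σ a))) ∧ ∀ a, lam ψ C (σ a) = lam ψ C a := by
    intro C hC hfix γ
    refine ⟨congE (slToSq (k + 2) F (x01 k F γ)), fun a => hconj _ a, fun a => ?_⟩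
    rw [congE_apply, lam_cong]
    have : mt (slToSq (k + 2) F (x01 k F γ)) = Matrix.transvection 0 1 (Multiplicative.toAdd γ) :=
      rfl
    rw [this, x01_cong C hC, hfix, smul_zero, add_zero]
  -- values
  have hval : ∀ C : Matrix (Fin (k + 2)) (Fin (k + 2)) F, hc u (lam ψ C) j χ x =
      (if C = 0 then hc u 0 j χ x else 0) +
      (if C ∈ O2 ∧ alt (C *ᵥ ee 0) (ee 1) = 0 then 1 else 0) := by
    intro C
    by_cases h0 : C = 0
    · subst h0
      rw [if_pos rfl, if_neg (fun h => zero_not_mem_O2 h.1), add_zero, lam_zero]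
    rw [if_neg h0, zero_add]
    by_cases hA : IsAltM C
    swap
    · rw [if_neg (fun h => hA (isAltM_of_mem_O2 h.1))]
      obtain ⟨X, hX, hne⟩ := exists_symm ψ hψ C hA
      exact hc_ker u _ j χ x X (hker X hX) hne
    by_cases hfix : alt (C *ᵥ ee 0) (ee 1) = 0
    swap
    · rw [if_neg (fun h => hfix h.2)]
      obtain ⟨b, hb⟩ : ∃ b, lam ψ (alt (C *ᵥ ee 0) (ee 1)) b ≠ 1 := by
        by_contra hcon
        push Not at hcon
        exact hfix (lam_eq_one ψ hψ _ hcon)
      apply hc_moved u _ j χ hcl x b (congE (slToSq (k + 2) F x) b) (hconj _ b)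
      rw [congE_apply, lam_cong, hx, hmt, x01_cong C hA, one_smul, lam_add]
      intro h
      apply hb
      have hne : lam ψ C b ≠ 0 := by
        rw [lam_apply]
        exact (ψ.val_isUnit _).ne_zero
      exact mul_left_cancel₀ hne (by rw [h, mul_one])
    have hchg : hc u (lam ψ C) j χ x =
        hc u (lam ψ C) (j.comp (x01 k F)) χ (Multiplicative.ofAdd 1) := rfl
    by_cases hO : C ∈ O2
    · rw [if_pos ⟨hO, hfix⟩, hchg]
      obtain ⟨h, c, hc1, hfixh, hcomm⟩ := htorus C hO hfix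
      apply mu_one χ hχ u (lam ψ C) (j.comp (x01 k F)) (hfixall C hA hfix) (hw1 C hO) (g h)
        (congE h) (hconj h) _ c hc1
      · intro s
        show g h * g (slToSq (k + 2) F (x01 k F (Multiplicative.ofAdd s))) =
          g (slToSq (k + 2) F (x01 k F (Multiplicative.ofAdd (c * s)))) * g h
        rw [← map_mul, ← map_mul, hcomm]
      · intro a
        rw [congE_apply, lam_cong, hfixh]
    · rw [if_neg (fun h => hO h.1), hchg]
      apply char_eq_zero _ (Cfsg.Agent.Lib.Helper40SLhc.hc_char χ hχ u (lam ψ C) (j.comp (x01 k F))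
        (hfixall C hA hfix))
      rw [hc_one, hw0 C hO h0]
  show χ (j x) = _
  rw [step1]
  simp only [hval]
  rw [Finset.sum_add_distrib, Finset.sum_ite_eq' Finset.univ 0, if_pos (Finset.mem_univ _),
    Finset.sum_boole, Nat.card_eq_fintype_card, Fintype.card_subtype]

theorem chi_x (k : ℕ) (hq : 3 < Fintype.card F) (ψ : AddChar F ℂ) (hψ : ψ.IsPrimitive)
    (u : Multiplicative (Matrix (Fin (k + 2)) (Fin (k + 2)) F) →* G) (g : sqGL (k + 2) F →* G)
    (χ : G → ℂ) (hχ : IsCharacter G χ)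
    (hrel : ∀ (A : sqGL (k + 2) F) (X : Matrix (Fin (k + 2)) (Fin (k + 2)) F),
      g A * u (Multiplicative.ofAdd X) = u (Multiplicative.ofAdd (mt A * X * (mt A)ᵀ)) * g A)
    (hker : ∀ X : Matrix (Fin (k + 2)) (Fin (k + 2)) F, Xᵀ = X → u (Multiplicative.ofAdd X) = 1)
    (hw1 : ∀ C, C ∈ O2 → wt u χ (lam ψ C) = 1)
    (hw0 : ∀ C, C ∉ O2 → C ≠ 0 → wt u χ (lam ψ C) = 0) :
    χ (g (slToSq (k + 2) F (x01 k F (Multiplicative.ofAdd 1)))) =
      hc u 0 (g.comp (slToSq (k + 2) F)) χ (x01 k F (Multiplicative.ofAdd 1)) +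
      (Nat.card {C : Matrix (Fin (k + 2)) (Fin (k + 2)) F //
        C ∈ O2 ∧ alt (C *ᵥ ee 0) (ee 1) = 0} : ℂ) :=
  chi_x_core k ψ hψ u g χ hχ hrel hker hw1 hw0
    (fun C hC hfix => Cfsg.Agent.Lib.Helper24Otorus.exists_torus k hq C hC hfix)

end main

end Cfsg.Agent.Lib.Helper37Ochix
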