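import Cfsg.Agent.Lib.Helper43SpDefs
import Cfsg.Agent.Lib.Helper65SpAPI

set_option autoImplicit false

/-! Project 243 (wave 2), pieces `cbasic`, `cchain`, `cs45`, `cwSd`; toolkit `l0 l1` for `S.quad`. -/

namespace Cfsg.Agent.Lib.Helper65Spcbasic

open Matrix Cfsg.Agent.Lib.Helper43St Cfsg.Agent.Lib.Helper43Sp
open Cfsg.Agent.Lib.Helper65SpAPI

variable {m : ℕ} {F : Type*} [Field F] {P : Type*} [Group P] (S : CSys m F P)

/-- same side as `a`, index `0` -/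
def l0 (a : I m) : I 2 := Sum.map (fun _ => 0) (fun _ => 0) a
/-- same side as `a`, index `1` -/
def l1 (a : I m) : I 2 := Sum.map (fun _ => 1) (fun _ => 1) a

theorem e2_l0 (a : I m) (j : Fin m) : e2 (ab a) j (l0 a) = a := by
  rcases a with i | i <;> simp [e2, l0, ab]
theorem e2_l1 (a : I m) (i : Fin m) : e2 i (ab a) (l1 a) = a := by
  rcases a with j | j <;> simp [e2, l1, ab]
theorem e2_ng (i j : Fin m) (c : I 2) : e2 i j (ng c) = ng (e2 i j c) := by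
  rcases c with c | c <;> simp [e2, ng]
theorem l0_ng (a : I m) : l0 (ng a) = ng (l0 a) := by
  rcases a with i | i <;> simp [l0, ng]
theorem l1_ng (a : I m) : l1 (ng a) = ng (l1 a) := by
  rcases a with i | i <;> simp [l1, ng]
theorem sg_l0 (a : I m) : sg F (l0 a) = sg F a := by
  rcases a with i | i <;> simp [l0, sg]
theorem sg_l1 (a : I m) : sg F (l1 a) = sg F a := by
  rcases a with i | i <;> simp [l1, sg]
theorem ab_l0 (a : I m) : ab (l0 a) = 0 := by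
  rcases a with i | i <;> simp [l0, ab]
theorem ab_l1 (a : I m) : ab (l1 a) = 1 := by
  rcases a with i | i <;> simp [l1, ab]
theorem ab_l0_ne_l1 (a b : I m) : ab (l0 a) ≠ ab (l1 b) := by
  rw [ab_l0, ab_l1]; decide
theorem ab_ng' (a : I m) : ab (ng a) = ab a := by
  rcases a with i | i <;> simp [ab, ng]
theorem ne_ng'' (a : I m) : a ≠ ng a := by
  rcases a with i | i <;> simp [ng]
theorem eq_ng_of_ab {a b : I m} (h : a ≠ b) (hab : ab a = ab b) : b = ng a := by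
  rcases a with i | i <;> rcases b with j | j <;> simp_all [ab, ng]

/-- every root lies in a `quad` -/
theorem exists_quad (hm : 2 ≤ m) (a b : I m) (hab : a ≠ b) :
    ∃ (f : Sp 2 F →* P) (c d : I 2), c ≠ d ∧ ∀ t, f (X c d t) = S.x a b t := by
  by_cases h : ab a = ab b
  · have hb := eq_ng_of_ab hab h
    obtain ⟨j, hj⟩ : ∃ j : Fin m, ab a ≠ j := by
      by_cases h0 : (ab a).val = 0
      · exact ⟨⟨1, by omega⟩, fun e => by rw [e] at h0; simp at h0⟩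
      · exact ⟨⟨0, by omega⟩, fun e => by rw [e] at h0; simp at h0⟩
    obtain ⟨f, hf⟩ := S.quad (ab a) j hj
    refine ⟨f, l0 a, ng (l0 a), ne_ng'' _, fun t => ?_⟩
    rw [hf _ _ t (ne_ng'' _), e2_ng, e2_l0, hb]
  · obtain ⟨f, hf⟩ := S.quad (ab a) (ab b) h
    have hne : l0 a ≠ l1 b := fun e => ab_l0_ne_l1 a b (by rw [e])
    refine ⟨f, l0 a, l1 b, hne, fun t => ?_⟩
    rw [hf _ _ t hne, e2_l0, e2_l1]

-- piece `cbasic` (all)
theorem x_add (hm : 2 ≤ m) (a b : I m) (hab : a ≠ b) (s t : F) :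
    S.x a b (s + t) = S.x a b s * S.x a b t := by
  obtain ⟨f, c, d, hcd, hf⟩ := exists_quad S hm a b hab
  rw [← hf, ← hf, ← hf, X_add c d hcd, map_mul]
theorem x_zero (hm : 2 ≤ m) (a b : I m) (hab : a ≠ b) : S.x a b 0 = 1 := by
  obtain ⟨f, c, d, hcd, hf⟩ := exists_quad S hm a b hab
  rw [← hf, X_zero, map_one]
theorem x_neg (hm : 2 ≤ m) (a b : I m) (hab : a ≠ b) (t : F) : (S.x a b t)⁻¹ = S.x a b (-t) := by
  obtain ⟨f, c, d, hcd, hf⟩ := exists_quad S hm a b hab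
  rw [← hf, ← hf, ← map_inv, X_inv]

theorem tv_chain3 (s t : F) :
    (tv 0 1 s : SpecialLinearGroup (Fin 3) F) * tv 1 2 t * (tv 0 1 s)⁻¹ * (tv 1 2 t)⁻¹ = tv 0 2 (s * t) := by
  simp only [tv_inv]
  ext i j
  fin_cases i <;> fin_cases j <;>
    simp [Matrix.mul_apply, Fin.sum_univ_three, tv_apply]

-- piece `cchain`
theorem x_chain (a b c : I m) (hab : ab a ≠ ab b) (hbc : ab b ≠ ab c) (hac : ab a ≠ ab c) (s t : F) :
    S.x a b s * S.x b c t * (S.x a b s)⁻¹ * (S.x b c t)⁻¹ = S.x a c (s * t) := by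
  have hinj : Function.Injective (ab ∘ (![a, b, c] : Fin 3 → I m)) := by
    intro p q hpq
    fin_cases p <;> fin_cases q <;> simp_all [eq_comm]
  obtain ⟨f, hf⟩ := S.tri ![a, b, c] hinj
  have h1 := hf 0 1 s (by decide)
  have h2 := hf 1 2 t (by decide)
  have h3 := hf 0 2 (s * t) (by decide)
  simp only [Matrix.cons_val_zero, Matrix.cons_val_one, Matrix.cons_val] at h1 h2 h3
  rw [← h1, ← h2, ← h3, ← tv_chain3, map_mul, map_mul, map_mul, map_inv, map_inv]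

-- piece `cs45` (all three)
theorem x_s5 (a b : I m) (hab : ab a ≠ ab b) (s t : F) :
    S.x a b s * S.x b (ng a) t * (S.x a b s)⁻¹ * (S.x b (ng a) t)⁻¹ = S.x a (ng a) (2 * s * t) := by
  obtain ⟨f, hf⟩ := S.quad (ab a) (ab b) hab
  have hne : l0 a ≠ l1 b := fun e => ab_l0_ne_l1 a b (by rw [e])
  have hne2 : l1 b ≠ ng (l0 a) := fun e => ab_l0_ne_l1 a b (by rw [e, ab_ng'])
  have h1 := hf _ _ s hne
  have h2 := hf _ _ t hne2
  have h3 := hf _ _ (2 * s * t) (ne_ng'' (l0 a))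
  rw [e2_l0, e2_l1] at h1
  rw [e2_ng, e2_l0, e2_l1] at h2
  rw [e2_ng, e2_l0] at h3
  rw [← h1, ← h2, ← h3, ← X_s5 _ _ (ab_l0_ne_l1 a b), map_mul, map_mul, map_mul, map_inv, map_inv]

theorem x_s4 (a b : I m) (hab : ab a ≠ ab b) (s t : F) :
    S.x a b s * S.x b (ng b) t * (S.x a b s)⁻¹ =
      S.x a (ng b) (s * t) * S.x a (ng a) (sg F a * sg F b * s ^ 2 * t) * S.x b (ng b) t := by
  obtain ⟨f, hf⟩ := S.quad (ab a) (ab b) hab
  have hne : l0 a ≠ l1 b := fun e => ab_l0_ne_l1 a b (by rw [e])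
  have hne2 : l0 a ≠ ng (l1 b) := fun e => ab_l0_ne_l1 a b (by rw [e, ab_ng'])
  have h1 := hf _ _ s hne
  have h2 := hf _ _ t (ne_ng'' (l1 b))
  have h3 := hf _ _ (s * t) hne2
  have h4 := hf _ _ (sg F a * sg F b * s ^ 2 * t) (ne_ng'' (l0 a))
  rw [e2_l0, e2_l1] at h1
  rw [e2_ng, e2_l1] at h2
  rw [e2_ng, e2_l0, e2_l1] at h3
  rw [e2_ng, e2_l0] at h4
  have h5 := X_s4 (F := F) _ _ (ab_l0_ne_l1 a b) s t
  rw [sg_l0, sg_l1] at h5
  rw [← h1, ← h2, ← h3, ← h4, ← map_inv, ← map_mul, ← map_mul, h5, map_mul, map_mul]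

theorem x_s4' (a b : I m) (hab : ab a ≠ ab b) (s t : F) :
    S.x b (ng b) t * S.x a b s * (S.x b (ng b) t)⁻¹ =
      S.x a b s * S.x a (ng b) (-(s * t)) * S.x a (ng a) (sg F a * sg F b * s ^ 2 * t) := by
  obtain ⟨f, hf⟩ := S.quad (ab a) (ab b) hab
  have hne : l0 a ≠ l1 b := fun e => ab_l0_ne_l1 a b (by rw [e])
  have hne2 : l0 a ≠ ng (l1 b) := fun e => ab_l0_ne_l1 a b (by rw [e, ab_ng'])
  have h1 := hf _ _ s hne
  have h2 := hf _ _ t (ne_ng'' (l1 b))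
  have h3 := hf _ _ (-(s * t)) hne2
  have h4 := hf _ _ (sg F a * sg F b * s ^ 2 * t) (ne_ng'' (l0 a))
  rw [e2_l0, e2_l1] at h1
  rw [e2_ng, e2_l1] at h2
  rw [e2_ng, e2_l0, e2_l1] at h3
  rw [e2_ng, e2_l0] at h4
  have h5 := X_s4' (F := F) _ _ (ab_l0_ne_l1 a b) s t
  rw [sg_l0, sg_l1] at h5
  rw [← h1, ← h2, ← h3, ← h4, ← map_inv, ← map_mul, ← map_mul, h5, map_mul, map_mul]

-- piece `cwSd`
theorem w_short_dis (i j : Fin m) (hij : i ≠ j) (c d : I m) (hcd : c ≠ d)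
    (h1 : ab c ≠ i) (h2 : ab c ≠ j) (h3 : ab d ≠ i) (h4 : ab d ≠ j) (t : F) :
    Commute (S.w (Sum.inl i) (Sum.inl j) 1) (S.x c d t) := by
  have hne : (Sum.inl i : I m) ≠ Sum.inl j := fun e => hij (Sum.inl.inj e)
  have e1 : ∀ s, Commute (S.x (Sum.inl i) (Sum.inl j) s) (S.x c d t) := fun s =>
    S.dis _ _ _ _ hne hcd (Ne.symm h1) (Ne.symm h3) (Ne.symm h2) (Ne.symm h4) s t
  have e2 : ∀ s, Commute (S.x (Sum.inl j) (Sum.inl i) s) (S.x c d t) := fun s =>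
    S.dis _ _ _ _ hne.symm hcd (Ne.symm h2) (Ne.symm h4) (Ne.symm h1) (Ne.symm h3) s t
  unfold CSys.w
  exact ((e1 _).mul_left (e2 _)).mul_left (e1 _)

end Cfsg.Agent.Lib.Helper65Spcbasic
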