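import Cfsg.Agent.Lib.Helper38SpCcomm
import Cfsg.Agent.Lib.Helper65Spcbasic

set_option autoImplicit false

/-! Project 243, piece `cLQ`: the Levi root elements normalise `Q` (and `Q' L`).
The pieces `cchain`, `cs45` are taken from `Helper65Spcbasic`. -/

namespace Cfsg.Agent.Lib.Helper38SpCLQ

open Matrix Cfsg.Agent.Lib.Helper43St Cfsg.Agent.Lib.Helper43Sp Cfsg.Agent.Lib.Helper84SpXval
open Cfsg.Agent.Lib.Helper38SpCcomm

variable {m : ℕ} {F : Type*} [Field F] {P : Type*} [Group P] (S : CSys m F P)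

/-- the statement of piece `cchain` -/
def Chain : Prop := ∀ (a b c : I m), ab a ≠ ab b → ab b ≠ ab c → ab a ≠ ab c → ∀ s t : F,
    S.x a b s * S.x b c t * (S.x a b s)⁻¹ * (S.x b c t)⁻¹ = S.x a c (s * t)

/-- the statement of `x_s5` (piece `cs45`) -/
def S5 : Prop := ∀ (a b : I m), ab a ≠ ab b → ∀ s t : F,
    S.x a b s * S.x b (ng a) t * (S.x a b s)⁻¹ * (S.x b (ng a) t)⁻¹ = S.x a (ng a) (2 * s * t)

/-- the statement of `x_s4` (piece `cs45`) -/
def S4 : Prop := ∀ (a b : I m), ab a ≠ ab b → ∀ s t : F,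
    S.x a b s * S.x b (ng b) t * (S.x a b s)⁻¹ =
      S.x a (ng b) (s * t) * S.x a (ng a) (sg F a * sg F b * s ^ 2 * t) * S.x b (ng b) t

theorem chain : Chain S := fun a b c h1 h2 h3 s t =>
  Cfsg.Agent.Lib.Helper65Spcbasic.x_chain S a b c h1 h2 h3 s t

theorem s5 : S5 S := fun a b h s t => Cfsg.Agent.Lib.Helper65Spcbasic.x_s5 S a b h s t

theorem s4 : S4 S := fun a b h s t => Cfsg.Agent.Lib.Helper65Spcbasic.x_s4 S a b h s t

theorem conj_of_comm {G : Type*} [Group G] {x y z : G} (h : x * y * x⁻¹ * y⁻¹ = z) :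
    x * y * x⁻¹ = z * y := by
  rw [← h]; group

/-- the case `k = j`. -/
theorem core1 (K : Subgroup P) (i j l : Fin m) (hij : i ≠ j)
    (hK : ∀ l t, S.x (Sum.inl i) (Sum.inr l) t ∈ K) (hβ : ∀ t, S.x (Sum.inl j) (Sum.inr l) t ∈ K)
    (s t : F) (x_chain : Chain S) (x_s5 : S5 S) (x_s4 : S4 S) :
    S.x (Sum.inl i) (Sum.inl j) s * S.x (Sum.inl j) (Sum.inr l) t * (S.x (Sum.inl i) (Sum.inl j) s)⁻¹
      ∈ K := by
  by_cases hjl : j = l
  · subst hjl
    have h : S.x (Sum.inl i) (Sum.inl j) s * S.x (Sum.inl j) (Sum.inr j) t *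
        (S.x (Sum.inl i) (Sum.inl j) s)⁻¹ = S.x (Sum.inl i) (Sum.inr j) (s * t) *
        S.x (Sum.inl i) (Sum.inr i) (sg F (Sum.inl i : I m) * sg F (Sum.inl j : I m) * s ^ 2 * t) *
        S.x (Sum.inl j) (Sum.inr j) t := x_s4 (Sum.inl i) (Sum.inl j) hij s t
    rw [h]
    exact K.mul_mem (K.mul_mem (hK _ _) (hK _ _)) (hβ _)
  · by_cases hil : i = l
    · subst hil
      have h : S.x (Sum.inl i) (Sum.inl j) s * S.x (Sum.inl j) (Sum.inr i) t *
          (S.x (Sum.inl i) (Sum.inl j) s)⁻¹ * (S.x (Sum.inl j) (Sum.inr i) t)⁻¹ =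
          S.x (Sum.inl i) (Sum.inr i) (2 * s * t) := x_s5 (Sum.inl i) (Sum.inl j) hij s t
      rw [conj_of_comm h]
      exact K.mul_mem (hK _ _) (hβ _)
    · have h := x_chain (Sum.inl i) (Sum.inl j) (Sum.inr l) hij hjl hil s t
      rw [conj_of_comm h]
      exact K.mul_mem (hK _ _) (hβ _)

theorem core (hm : 2 ≤ m) (K : Subgroup P) (i j k l : Fin m) (hij : i ≠ j)
    (hK : ∀ l t, S.x (Sum.inl i) (Sum.inr l) t ∈ K) (hβ : ∀ t, S.x (Sum.inl k) (Sum.inr l) t ∈ K)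
    (hβ' : ∀ t, S.x (Sum.inl l) (Sum.inr k) t ∈ K)
    (s t : F) (x_chain : Chain S) (x_s5 : S5 S) (x_s4 : S4 S) :
    S.x (Sum.inl i) (Sum.inl j) s * S.x (Sum.inl k) (Sum.inr l) t * (S.x (Sum.inl i) (Sum.inl j) s)⁻¹
      ∈ K := by
  by_cases hjk : j = k
  · subst hjk
    exact core1 S K i j l hij hK hβ s t x_chain x_s5 x_s4
  · by_cases hjl : j = l
    · subst hjl
      have e : S.x (Sum.inl k) (Sum.inr j) t = S.x (Sum.inl j) (Sum.inr k)
          (-(sg F (Sum.inl k : I m) * sg F (Sum.inr j : I m) * t)) :=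
        S.sym (Sum.inl k) (Sum.inr j) t (Ne.symm hjk)
      rw [e]
      exact core1 S K i j k hij hK hβ' s _ x_chain x_s5 x_s4
    · have hc : Commute (S.x (Sum.inl i) (Sum.inl j) s) (S.x (Sum.inl k) (Sum.inr l) t) :=
        x_comm S hm _ _ _ _ (fun e => hij (Sum.inl.inj e)) (by simp) (fun e => hjk (Sum.inl.inj e))
          (by simp) (fun e => hjl (Sum.inl.inj e)) (fun e => by simp [ng] at e) s t
      rw [hc.eq, mul_inv_cancel_right]
      exact hβ t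

theorem mem_Q (i j : Fin m) (t : F) : S.x (Sum.inl i) (Sum.inr j) t ∈ S.Q :=
  Subgroup.subset_closure ⟨i, j, t, rfl⟩

theorem mem_Q' (L i j : Fin m) (h : (i, j) ≠ (L, L)) (t : F) : S.x (Sum.inl i) (Sum.inr j) t ∈ S.Q' L :=
  Subgroup.subset_closure ⟨i, j, t, h, rfl⟩

-- piece `cLQ` (all three; `i ≠ j`)
theorem LQ_gen (hm : 2 ≤ m) (i j k l : Fin m) (hij : i ≠ j) (s t : F) :
    S.x (Sum.inl i) (Sum.inl j) s * S.x (Sum.inl k) (Sum.inr l) t * (S.x (Sum.inl i) (Sum.inl j) s)⁻¹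
      ∈ S.Q :=
  core S hm S.Q i j k l hij (fun _ _ => mem_Q S _ _ _) (fun _ => mem_Q S _ _ _)
    (fun _ => mem_Q S _ _ _) s t (chain S) (s5 S) (s4 S)

theorem LQ_gen' (hm : 2 ≤ m) (L i j k l : Fin m) (hij : i ≠ j) (hi : i ≠ L) (hkl : (k, l) ≠ (L, L))
    (s t : F) :
    S.x (Sum.inl i) (Sum.inl j) s * S.x (Sum.inl k) (Sum.inr l) t * (S.x (Sum.inl i) (Sum.inl j) s)⁻¹
      ∈ S.Q' L :=
  core S hm (S.Q' L) i j k l hij
    (fun l _ => mem_Q' S L i l (fun e => hi (congrArg Prod.fst e)) _)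
    (fun _ => mem_Q' S L k l hkl _)
    (fun _ => mem_Q' S L l k (fun e => hkl (by
      have e1 := congrArg Prod.fst e
      have e2 := congrArg Prod.snd e
      simp only at e1 e2
      rw [e1, e2])) _) s t (chain S) (s5 S) (s4 S)

theorem comm_Q (hm : 2 ≤ m) (i j k l : Fin m) (s t : F) :
    Commute (S.x (Sum.inl i) (Sum.inr j) s) (S.x (Sum.inl k) (Sum.inr l) t) :=
  x_comm S hm _ _ _ _ (by simp) (by simp) (by simp) (by simp) (fun e => by simp [ng] at e)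
    (fun e => by simp [ng] at e) s t

theorem LQ_gen'' (hm : 2 ≤ m) (L i j : Fin m) (hij : i ≠ j) (hi : i ≠ L) (s t : F) :
    (S.x (Sum.inl L) (Sum.inr L) t)⁻¹ * (S.x (Sum.inl i) (Sum.inl j) s * S.x (Sum.inl L) (Sum.inr L) t *
      (S.x (Sum.inl i) (Sum.inl j) s)⁻¹) ∈ S.Q' L := by
  by_cases hjL : j = L
  · subst hjL
    have h : S.x (Sum.inl i) (Sum.inl j) s * S.x (Sum.inl j) (Sum.inr j) t *
        (S.x (Sum.inl i) (Sum.inl j) s)⁻¹ = S.x (Sum.inl i) (Sum.inr j) (s * t) *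
        S.x (Sum.inl i) (Sum.inr i) (sg F (Sum.inl i : I m) * sg F (Sum.inl j : I m) * s ^ 2 * t) *
        S.x (Sum.inl j) (Sum.inr j) t := s4 S (Sum.inl i) (Sum.inl j) hij s t
    rw [h]
    have hc : Commute (S.x (Sum.inl i) (Sum.inr j) (s * t) *
        S.x (Sum.inl i) (Sum.inr i) (sg F (Sum.inl i : I m) * sg F (Sum.inl j : I m) * s ^ 2 * t))
        (S.x (Sum.inl j) (Sum.inr j) t) :=
      (comm_Q S hm _ _ _ _ _ _).mul_left (comm_Q S hm _ _ _ _ _ _)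
    rw [hc.eq, inv_mul_cancel_left]
    exact (S.Q' j).mul_mem (mem_Q' S j i j (fun e => hi (congrArg Prod.fst e)) _)
      (mem_Q' S j i i (fun e => hi (congrArg Prod.fst e)) _)
  · have hc : Commute (S.x (Sum.inl i) (Sum.inl j) s) (S.x (Sum.inl L) (Sum.inr L) t) :=
      x_comm S hm _ _ _ _ (fun e => hij (Sum.inl.inj e)) (by simp) (fun e => hjL (Sum.inl.inj e))
        (by simp) (fun e => hjL (Sum.inl.inj e)) (fun e => by simp [ng] at e) s t
    rw [hc.eq, mul_inv_cancel_right, inv_mul_cancel]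
    exact (S.Q' L).one_mem

end Cfsg.Agent.Lib.Helper38SpCLQ
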