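import Cfsg.Agent.Lib.Helper43SpDefs
import Cfsg.Agent.Lib.Helper84SpXval
import Cfsg.Agent.Lib.Helper84SpXcomm
import Cfsg.Agent.Lib.Helper11BPTvcomm

set_option autoImplicit false

/-! Project 243, piece `ccomm`: commuting root elements in a Steinberg system of type `C_m`. -/

namespace Cfsg.Agent.Lib.Helper38SpCcomm

open Matrix Cfsg.Agent.Lib.Helper43St Cfsg.Agent.Lib.Helper43Sp Cfsg.Agent.Lib.Helper84SpXval

variable {m : ℕ} {F : Type*} [Field F] {P : Type*} [Group P] (S : CSys m F P)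

theorem e2_ng (i j : Fin m) (c : I 2) : e2 i j (ng c) = ng (e2 i j c) := by
  rcases c with c | c <;> rfl

theorem exists_e2 (i j : Fin m) (a : I m) (h : ab a = i ∨ ab a = j) : ∃ a' : I 2, a = e2 i j a' := by
  rcases a with a | a
  · rcases h with h | h
    · exact ⟨Sum.inl 0, by rw [← h]; rfl⟩
    · exact ⟨Sum.inl 1, by rw [← h]; rfl⟩
  · rcases h with h | h
    · exact ⟨Sum.inr 0, by rw [← h]; rfl⟩
    · exact ⟨Sum.inr 1, by rw [← h]; rfl⟩

/-- all four indices inside `{±i, ±j}`. -/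
theorem comm_quad (i j : Fin m) (hij : i ≠ j) (a b c d : I m) (hab : a ≠ b) (hcd : c ≠ d)
    (h1 : b ≠ c) (h2 : a ≠ d) (h3 : b ≠ ng d) (h4 : a ≠ ng c)
    (ha : ab a = i ∨ ab a = j) (hb : ab b = i ∨ ab b = j) (hc : ab c = i ∨ ab c = j)
    (hd : ab d = i ∨ ab d = j) (s t : F) : Commute (S.x a b s) (S.x c d t) := by
  obtain ⟨a', rfl⟩ := exists_e2 i j a ha
  obtain ⟨b', rfl⟩ := exists_e2 i j b hb
  obtain ⟨c', rfl⟩ := exists_e2 i j c hc
  obtain ⟨d', rfl⟩ := exists_e2 i j d hd
  obtain ⟨f, hf⟩ := S.quad i j hij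
  have hab' : a' ≠ b' := fun e => hab (by rw [e])
  have hcd' : c' ≠ d' := fun e => hcd (by rw [e])
  rw [← hf a' b' s hab', ← hf c' d' t hcd']
  exact (Cfsg.Agent.Lib.Helper84SpXcomm.X_comm a' b' c' d' hab' hcd' (fun e => h1 (by rw [e]))
    (fun e => h2 (by rw [e])) (fun e => h3 (by rw [e, e2_ng])) (fun e => h4 (by rw [e, e2_ng]))
    s t).map f

theorem inj3 (a b c : I m) (hab : ab a ≠ ab b) (hbc : ab b ≠ ab c) (hac : ab a ≠ ab c) :
    Function.Injective (ab ∘ ![a, b, c]) := by
  intro p q h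
  fin_cases p <;> fin_cases q <;> simp_all [Function.comp]

/-- same first index. -/
theorem comm_row (a b d : I m) (hab : ab a ≠ ab b) (hbd : ab b ≠ ab d) (had : ab a ≠ ab d) (s t : F) :
    Commute (S.x a b s) (S.x a d t) := by
  obtain ⟨f, hf⟩ := S.tri ![a, b, d] (inj3 a b d hab hbd had)
  have e1 := hf 0 1 s (by decide)
  have e2 := hf 0 2 t (by decide)
  simp only [Matrix.cons_val_zero, Matrix.cons_val_one, Matrix.cons_val] at e1 e2
  rw [← e1, ← e2]
  exact (Cfsg.Agent.Lib.Helper11BPTvcomm.tv_comm 0 1 0 2 (by decide) (by decide) s t).map f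

/-- same second index. -/
theorem comm_col (a b c : I m) (hab : ab a ≠ ab b) (hbc : ab b ≠ ab c) (hac : ab a ≠ ab c) (s t : F) :
    Commute (S.x a b s) (S.x c b t) := by
  obtain ⟨f, hf⟩ := S.tri ![a, b, c] (inj3 a b c hab hbc hac)
  have e1 := hf 0 1 s (by decide)
  have e2 := hf 2 1 t (by decide)
  simp only [Matrix.cons_val_zero, Matrix.cons_val_one, Matrix.cons_val] at e1 e2
  rw [← e1, ← e2]
  exact (Cfsg.Agent.Lib.Helper11BPTvcomm.tv_comm 0 1 2 1 (by decide) (by decide) s t).map f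

theorem eq_or_eq_ng {a c : I m} (h : ab a = ab c) : a = c ∨ a = ng c := by
  rcases a with a | a <;> rcases c with c | c
  · left; exact congrArg _ h
  · right; exact congrArg Sum.inl h
  · right; exact congrArg Sum.inr h
  · left; exact congrArg _ h

-- piece `ccomm`
theorem x_comm (hm : 2 ≤ m) (a b c d : I m) (hab : a ≠ b) (hcd : c ≠ d) (h1 : b ≠ c) (h2 : a ≠ d)
    (h3 : b ≠ ng d) (h4 : a ≠ ng c) (s t : F) : Commute (S.x a b s) (S.x c d t) := by
  by_cases hac : ab a = ab c
  · by_cases hab' : ab a = ab b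
    · by_cases hcd' : ab c = ab d
      · -- everything at one index
        obtain ⟨j, hj⟩ : ∃ j : Fin m, ab a ≠ j := by
          by_cases h0 : ab a = ⟨0, by omega⟩
          · exact ⟨⟨1, by omega⟩, by rw [h0]; simp [Fin.ext_iff]⟩
          · exact ⟨_, h0⟩
        exact comm_quad S (ab a) j hj a b c d hab hcd h1 h2 h3 h4 (Or.inl rfl) (Or.inl hab'.symm)
          (Or.inl hac.symm) (Or.inl (by rw [hac, hcd'])) s t
      · exact comm_quad S (ab c) (ab d) hcd' a b c d hab hcd h1 h2 h3 h4 (Or.inl hac)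
          (Or.inl (by rw [← hab', hac])) (Or.inl rfl) (Or.inr rfl) s t
    · by_cases hd : ab d = ab a ∨ ab d = ab b
      · exact comm_quad S (ab a) (ab b) hab' a b c d hab hcd h1 h2 h3 h4 (Or.inl rfl) (Or.inr rfl)
          (Or.inl hac.symm) hd s t
      · push Not at hd
        have e : a = c := (eq_or_eq_ng hac).resolve_right h4
        subst e
        exact comm_row S a b d hab' (Ne.symm hd.2) (Ne.symm hd.1) s t
  by_cases had : ab a = ab d
  · by_cases hab' : ab a = ab b
    · -- `c`, `d` at different indices as `|a| = |d| ≠ |c|`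
      exact comm_quad S (ab c) (ab d) (fun e => hac (by rw [had, e])) a b c d hab hcd h1 h2 h3 h4
        (Or.inr had) (Or.inr (by rw [← hab', had])) (Or.inl rfl) (Or.inr rfl) s t
    · by_cases hc : ab c = ab b
      · exact comm_quad S (ab a) (ab b) hab' a b c d hab hcd h1 h2 h3 h4 (Or.inl rfl) (Or.inr rfl)
          (Or.inr hc) (Or.inl had.symm) s t
      · have e : a = ng d := (eq_or_eq_ng had).resolve_left h2
        have e' : d = ng a := by rw [e, ng_ng]
        subst e'
        rw [S.sym c (ng a) t (by rw [ab_ng]; exact Ne.symm hac), ng_ng]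
        exact comm_row S a b (ng c) hab' (by rw [ab_ng]; exact Ne.symm hc) (by rw [ab_ng]; exact hac) s _
  by_cases hbc : ab b = ab c
  · -- `|a| ≠ |b|`
    have hab' : ab a ≠ ab b := by rw [hbc]; exact hac
    by_cases hd : ab d = ab b
    · exact comm_quad S (ab a) (ab b) hab' a b c d hab hcd h1 h2 h3 h4 (Or.inl rfl) (Or.inr rfl)
        (Or.inr hbc.symm) (Or.inr hd) s t
    · have e : b = ng c := (eq_or_eq_ng hbc).resolve_left h1
      have e' : c = ng b := by rw [e, ng_ng]
      subst e'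
      rw [S.sym (ng b) d t (by rw [ab_ng]; exact Ne.symm hd), ng_ng]
      exact comm_col S a b (ng d) hab' (by rw [ab_ng]; exact Ne.symm hd) (by rw [ab_ng]; exact had) s _
  by_cases hbd : ab b = ab d
  · have hab' : ab a ≠ ab b := by rw [hbd]; exact had
    have e : b = d := (eq_or_eq_ng hbd).resolve_right h3
    subst e
    exact comm_col S a b c hab' hbc hac s t
  exact S.dis a b c d hab hcd hac had hbc hbd s t

end Cfsg.Agent.Lib.Helper38SpCcomm
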