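import Mathlib
import Cfsg.Agent.Lib.Helper39NormalFusion

set_option autoImplicit false

namespace Cfsg.Agent.Lib.Helper39Constrained

open Cfsg Cfsg.Agent.Lib.Helper39Sylow Cfsg.Agent.Lib.Helper39Control
  Cfsg.Agent.Lib.Helper39Rel Cfsg.Agent.Lib.Helper39Core
  Cfsg.Agent.Lib.Helper39WellPlaced Cfsg.Agent.Lib.Helper39Section
  Cfsg.Agent.Lib.Helper39Fusion Cfsg.Agent.Lib.Helper39SecFusion Cfsg.Agent.Lib.Helper39NormalFusion

variable {p : ℕ}

/-- the case `X = C_X(Q) S`: fusion in `S` is controlled by the preimage of any subgroup of `X / Q`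
controlling strong fusion in `S / Q` -/
theorem relM_of_sup_eq_top' {X : Type*} [Group X] [Finite X] [Fact p.Prime]
    {S Q : Subgroup X} (hS : IsSyl p S ⊤) [hQn : Q.Normal] (hQS : Q ≤ S)
    (htop : Subgroup.centralizer (Q : Set X) ⊔ S = ⊤)
    (Mb : Subgroup (X ⧸ Q)) (hSMb : S.map (QuotientGroup.mk' Q) ≤ Mb)
    (hq : ∀ A : Subgroup (X ⧸ Q), A ≤ S.map (QuotientGroup.mk' Q) → ∀ g : X ⧸ Q,
      cj g A ≤ S.map (QuotientGroup.mk' Q) → RelM Mb A g) :
    ∀ A : Subgroup X, A ≤ S → ∀ g : X, cj g A ≤ S → RelM (Mb.comap (QuotientGroup.mk' Q)) A g := by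
  set π := QuotientGroup.mk' Q with hπ
  set M := Mb.comap π with hM
  have hSM : S ≤ M := fun s hs => hSMb ⟨s, hs, rfl⟩
  have hQp : IsPGroup p Q := hS.2.1.to_le hQS
  apply alperin_induction S hS (RelM M) (fun A g h _ _ _ h1 h2 => h1.trans h2)
    (fun A g _ _ h1 => h1.symm) (fun A B g _ _ hBA h1 => h1.mono hBA) Set.univ
  · intro T hT
    obtain ⟨h, h1, h2, -⟩ := exists_tame_conj hS hT
    exact ⟨cj h T, trivial, h1, ⟨h, rfl⟩, h2⟩
  · intro U _ hUS hUsyl IH x hx
    by_cases hQU : Q ≤ U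
    · -- main case
      have hxU : cj x U = U := mem_normalizer_iff_cj.1 hx
      obtain ⟨nb, hnb, zb, hzb, e⟩ := hq (U.map π) (Subgroup.map_mono hUS) (π x) (by
        rw [← map_cj, hxU]; exact Subgroup.map_mono hUS)
      obtain ⟨n, hne⟩ := QuotientGroup.mk'_surjective Q nb
      have hne' : π n = nb := hne
      rw [← hne'] at e hnb
      have hnM : n ∈ M := hnb
      set D := (Subgroup.centralizer ((U.map π : Subgroup (X ⧸ Q)) : Set (X ⧸ Q))).comap π with hD
      have hzD : n⁻¹ * x ∈ D := by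
        rw [hD, Subgroup.mem_comap, map_mul, map_inv, e, inv_mul_cancel_left]
        exact hzb
      -- elements of `D` act trivially on `U / Q`
      have hDact : ∀ d ∈ D, ∀ u ∈ U, u⁻¹ * (d * u * d⁻¹) ∈ Q := by
        intro d hd u hu
        have h1 : π u * π d = π d * π u := hd (π u) ⟨u, hu, rfl⟩
        rw [← QuotientGroup.ker_mk' Q, MonoidHom.mem_ker, ← hπ]
        simp only [map_mul, map_inv]
        rw [← h1]; group
      have hDN : D ≤ Subgroup.normalizer (U : Set X) := by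
        intro d hd
        rw [mem_normalizer_iff_cj]
        apply cj_eq_of_le_of_finite
        rintro _ ⟨u, hu, rfl⟩
        have h1 := hQU (hDact d hd u hu)
        have h2 : d * u * d⁻¹ = u * (u⁻¹ * (d * u * d⁻¹)) := by group
        show d * u * d⁻¹ ∈ U
        rw [h2]
        exact U.mul_mem hu h1
      have hND : Subgroup.normalizer (U : Set X) ≤ Subgroup.normalizer (D : Set X) := by
        intro k hk
        rw [mem_normalizer_iff_cj]
        apply cj_eq_of_le_of_finite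
        rintro _ ⟨d, hd, rfl⟩
        show k * d * k⁻¹ ∈ D
        rw [hD, Subgroup.mem_comap]
        have h1 : π k ∈ Subgroup.normalizer ((U.map π : Subgroup (X ⧸ Q)) : Set (X ⧸ Q)) := by
          rw [mem_normalizer_iff_cj, ← map_cj, mem_normalizer_iff_cj.1 hk]
        have h2 := Cfsg.Agent.Lib.Helper39KInfCent.normalizer_le_normalizer_centralizer _ h1
        have h3 := (Subgroup.mem_normalizer_iff.1 h2 (π d)).1 hd
        simpa using h3
      have hDC : D ≤ Subgroup.normalizer ((Subgroup.centralizer (U : Set X) : Subgroup X) : Set X) :=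
        hDN.trans (Cfsg.Agent.Lib.Helper39KInfCent.normalizer_le_normalizer_centralizer U)
      have hpow : ∀ d ∈ D, ∃ k : ℕ, d ^ (p ^ k) ∈ Subgroup.centralizer (U : Set X) := by
        intro d hd
        obtain ⟨k, hk⟩ := exists_pow_coprime (p := p) d
        refine ⟨k, ?_⟩
        set z := d ^ (p ^ k) with hz
        have hzD' : z ∈ D := D.pow_mem hd _
        have hzC : z ∈ Subgroup.centralizer (Q : Set X) :=
          mem_of_coprime_of_sup_eq_top inferInstance hS.2.1 htop hk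
        have hcop : (Nat.card (Subgroup.zpowers z)).Coprime (Nat.card Q) := by
          rw [Nat.card_zpowers]
          obtain ⟨j, hj⟩ := hQp.exists_card_eq
          rw [hj]
          exact Nat.Coprime.pow_right j hk
        have hzp : Subgroup.zpowers z ≤ D ⊓ Subgroup.centralizer (Q : Set X) := by
          rw [Subgroup.zpowers_le]; exact ⟨hzD', hzC⟩
        have h1 := Cfsg.Agent.Lib.Helper30Coprime.centralizes_of_chain (A := Subgroup.zpowers z) (P := U) (N := Q)
          hcop (fun a ha n hn => by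
            have := (hzp ha).2 n hn
            rw [← this]; group)
          (fun a ha u hu => hDact a (hzp ha).1 u hu) z (Subgroup.mem_zpowers z)
        intro u hu
        have h2 := h1 u hu
        calc u * z = (z * u * z⁻¹) * z := by rw [h2]
          _ = z * u := by group
      obtain ⟨t, ht, c, hc, e2⟩ := exists_mul_of_pgroup_quotient hUsyl hDN hND hDC hpow _ hzD
      refine ⟨n * t, M.mul_mem hnM (hSM ht.1.1), c, hc, ?_⟩
      rw [mul_assoc, ← e2]; group
    · -- enlarge `U`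
      have hlt : U < U ⊔ Q := lt_of_le_of_ne le_sup_left (fun h => hQU (h ▸ le_sup_right))
      have hle : U ⊔ Q ≤ S := sup_le hUS hQS
      have hx2 : cj x (U ⊔ Q) = U ⊔ Q := by
        rw [cj_sup, mem_normalizer_iff_cj.1 hx, cj_of_normal hQn]
      exact (IH (U ⊔ Q) hle (card_lt_of_lt hlt) x (by rw [hx2]; exact hle)).mono le_sup_left


/-! ### transfer of control between a subgroup (as a type) and the ambient group -/

theorem ctl_top_iff {X : Type*} [Group X] {S Q : Subgroup X} :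
    Ctl ⊤ S Q ↔ ∀ A : Subgroup X, A ≤ S → ∀ g : X, cj g A ≤ S →
      RelM (Subgroup.normalizer (Q : Set X)) A g := by
  constructor
  · intro h A hA g hg
    obtain ⟨y, hy, c, hc, e⟩ := h A hA g trivial hg
    exact ⟨y, hy.2, c, hc.2, e⟩
  · intro h A hA g _ hg
    obtain ⟨y, hy, c, hc, e⟩ := h A hA g hg
    exact ⟨y, ⟨trivial, hy⟩, c, ⟨trivial, hc⟩, e⟩

theorem ctl_up {X : Type*} [Group X] {H T : Subgroup X} (hTH : T ≤ H) {Q' : Subgroup H}
    (h : Ctl ⊤ (T.subgroupOf H) Q') : Ctl H T (Q'.map H.subtype) := by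
  intro A hA g hg hgA
  have hAH : A ≤ H := hA.trans hTH
  obtain ⟨n, hn, c, hc, e⟩ := h (A.subgroupOf H) (Subgroup.comap_mono hA) ⟨g, hg⟩ trivial (by
    rw [← Subgroup.map_le_map_iff_of_injective H.subtype_injective, map_cj,
      Subgroup.map_subgroupOf_eq_of_le hAH, Subgroup.map_subgroupOf_eq_of_le hTH]
    exact hgA)
  refine ⟨n, ?_, c, ?_, congrArg Subtype.val e⟩
  · have h1 : (n : X) ∈ (Subgroup.normalizer ((Q' : Subgroup H) : Set H)).map H.subtype := ⟨n, hn.2, rfl⟩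
    rw [map_normalizer_subtype] at h1
    exact h1
  · have h1 : (c : X) ∈ (Subgroup.centralizer ((A.subgroupOf H : Subgroup H) : Set H)).map H.subtype :=
      ⟨c, hc.2, rfl⟩
    rw [map_centralizer_subtype, Subgroup.map_subgroupOf_eq_of_le hAH] at h1
    exact h1

theorem ctl_down {X : Type*} [Group X] {M N R V : Subgroup X} (hNM : N ≤ M)
    (h : Ctl N R V) : Ctl (N.subgroupOf M) (R.subgroupOf M) (V.subgroupOf M) := by
  intro A hA n hn hnA
  obtain ⟨y, hy, c, hc, e⟩ := h (A.map M.subtype) (by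
      rintro _ ⟨a, ha, rfl⟩
      exact hA ha) n.1 hn (by
      rw [show (n : X) = M.subtype n from rfl, ← map_cj]
      rintro _ ⟨a, ha, rfl⟩
      exact hnA ha)
  have hyn : (⟨y, hNM hy.1⟩ : M) ∈ Subgroup.normalizer ((V.subgroupOf M : Subgroup M) : Set M) := by
    rw [Subgroup.mem_normalizer_iff]
    intro x
    exact Subgroup.mem_normalizer_iff.1 hy.2 x.1
  have hcc : (⟨c, hNM hc.1⟩ : M) ∈ Subgroup.centralizer ((A : Subgroup M) : Set M) := by
    intro a ha
    apply Subtype.ext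
    exact hc.2 a.1 ⟨a, ha, rfl⟩
  exact ⟨⟨y, hNM hy.1⟩, ⟨hy.1, hyn⟩, ⟨c, hNM hc.1⟩, ⟨hc.1, hcc⟩, Subtype.ext e⟩

/-- composition of control -/
theorem ctl_comp {X : Type*} [Group X] {S Q Q' : Subgroup X}
    (h1 : Ctl ⊤ S Q) (h2 : Ctl (Subgroup.normalizer (Q : Set X)) S Q') : Ctl ⊤ S Q' := by
  intro A hA g _ hgA
  obtain ⟨y, hy, c, hc, rfl⟩ := h1 A hA g trivial hgA
  have h3 : cj y A ≤ S := by
    rw [cj_mul, cj_eq_of_mem_centralizer hc.2] at hgA
    exact hgA
  obtain ⟨y', hy', c', hc', rfl⟩ := h2 A hA y hy.2 h3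
  exact ⟨y', ⟨trivial, hy'.2⟩, c' * c, ⟨trivial, mul_mem hc'.2 hc.2⟩, by group⟩

/-- relative version of `relM_of_normal` -/
theorem ctl_of_normal_rel {X : Type*} [Group X] [Finite X] [Fact p.Prime] {M N P W : Subgroup X}
    (hNM : N ≤ M) (hMN : M ≤ Subgroup.normalizer (N : Set X)) (hP : IsSyl p P M) (hWM : W ≤ M)
    (hWn : M ⊓ Subgroup.normalizer ((P ⊓ N : Subgroup X) : Set X) ≤ Subgroup.normalizer (W : Set X))
    (hctl : Ctl N (P ⊓ N) W) : Ctl M P W := by
  have hN' : (N.subgroupOf M).Normal := Subgroup.normal_subgroupOf_of_le_normalizer hMN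
  have h1 := relM_of_normal (p := p) (N := N.subgroupOf M) (P := P.subgroupOf M) (W := W.subgroupOf M) hN'
    (isSyl_subgroupOf hP) (by
      intro x hx
      have h2 : x.1 ∈ Subgroup.normalizer ((P ⊓ N : Subgroup X) : Set X) := by
        have h3 : (x : X) ∈ (Subgroup.normalizer
          ((P.subgroupOf M ⊓ N.subgroupOf M : Subgroup M) : Set M)).map M.subtype := ⟨x, hx, rfl⟩
        rw [map_normalizer_subtype, show P.subgroupOf M ⊓ N.subgroupOf M = (P ⊓ N).subgroupOf M from rfl,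
          Subgroup.map_subgroupOf_eq_of_le (inf_le_right.trans hNM)] at h3
        exact h3.2
      have h4 := hWn ⟨x.2, h2⟩
      rw [Subgroup.mem_normalizer_iff]
      intro z
      exact Subgroup.mem_normalizer_iff.1 h4 z.1) (ctl_down hNM hctl)
  have h5 := ctl_up hP.1 (ctl_top_iff.2 h1)
  rwa [Subgroup.map_subgroupOf_eq_of_le hWM] at h5


/-- `Q` is a normal subgroup of `S` whose normalizer controls strong fusion in `S` -/
def Nrm {X : Type*} [Group X] (S Q : Subgroup X) : Prop :=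
  Q ≤ S ∧ S ≤ Subgroup.normalizer (Q : Set X) ∧ Ctl ⊤ S Q

theorem exists_largest {X : Type*} [Group X] [Finite X] (S : Subgroup X) :
    ∃ Q, Nrm S Q ∧ ∀ Q', Nrm S Q' → Q' ≤ Q := by
  refine ⟨sSup {Q | Nrm S Q}, ⟨sSup_le (fun Q hQ => hQ.1), ?_, ctl_sSup (fun V hV => ⟨hV.1, hV.2.2⟩)⟩,
    fun Q' hQ' => le_sSup hQ'⟩
  intro s hs
  rw [mem_normalizer_iff_cj]
  apply cj_eq_of_le_of_finite
  rw [cj_le_iff]
  apply sSup_le
  intro V hV
  rw [← cj_le_iff, mem_normalizer_iff_cj.1 (hV.2.1 hs)]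
  exact le_sSup hV

theorem exists_of_normal {X : Type*} [Group X] [Finite X] [Fact p.Prime] {N P V : Subgroup X}
    (hN : N.Normal) (hP : IsSyl p P ⊤) (hV : V ≤ P ⊓ N) (hctl : Ctl N (P ⊓ N) V) :
    ∃ W : Subgroup X, V ≤ W ∧ W ≤ P ⊓ N ∧ Nrm P W := by
  set R := P ⊓ N with hR
  let 𝒱 : Set (Subgroup X) := {V' | ∃ x ∈ Subgroup.normalizer (R : Set X), V' = cj x V}
  have h𝒱 : ∀ V' ∈ 𝒱, V' ≤ R ∧ Ctl N R V' := by
    rintro _ ⟨x, hx, rfl⟩
    have hxR := mem_normalizer_iff_cj.1 hx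
    refine ⟨?_, hctl.conj (cj_of_normal hN x) hxR⟩
    have := cj_mono (g := x) hV
    rwa [hxR] at this
  have hctlW : Ctl N R (sSup 𝒱) := ctl_sSup h𝒱
  have hWn : Subgroup.normalizer (R : Set X) ≤ Subgroup.normalizer ((sSup 𝒱 : Subgroup X) : Set X) := by
    intro y hy
    rw [mem_normalizer_iff_cj]
    apply cj_eq_of_le_of_finite
    rw [cj_le_iff]
    apply sSup_le
    rintro _ ⟨x, hx, rfl⟩
    rw [← cj_le_iff, ← cj_mul]
    exact le_sSup ⟨y * x, Subgroup.mul_mem _ hy hx, rfl⟩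
  have hPR : P ≤ Subgroup.normalizer (R : Set X) := by
    intro s hs
    rw [mem_normalizer_iff_cj, hR, cj_inf, cj_eq_of_mem hs, cj_of_normal hN]
  have hWR : sSup 𝒱 ≤ R := sSup_le (fun V' hV' => (h𝒱 V' hV').1)
  refine ⟨sSup 𝒱, le_sSup ⟨1, one_mem _, (cj_one V).symm⟩, hWR, hWR.trans inf_le_left, hPR.trans hWn, ?_⟩
  exact ctl_top_iff.2 (relM_of_normal hN hP hWn hctlW)

theorem centric_up {X : Type*} [Group X] {H T Q : Subgroup X} (hTH : T ≤ H) {V' : Subgroup H}
    (hc : T.subgroupOf H ⊓ Subgroup.centralizer (V' : Set H) ≤ V') (hVQ : V'.map H.subtype ≤ Q) :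
    T ⊓ Subgroup.centralizer (Q : Set X) ≤ Q := by
  intro x hx
  have h1 : (⟨x, hTH hx.1⟩ : H) ∈ T.subgroupOf H ⊓ Subgroup.centralizer (V' : Set H) := by
    refine ⟨hx.1, ?_⟩
    intro v hv
    apply Subtype.ext
    exact hx.2 v.1 (hVQ ⟨v, hv, rfl⟩)
  exact hVQ ⟨_, hc h1, rfl⟩

theorem nrm_up {X : Type*} [Group X] {H T : Subgroup X} (hTH : T ≤ H) {V' : Subgroup H}
    (h : Nrm (T.subgroupOf H) V') :
    V'.map H.subtype ≤ T ∧ T ≤ Subgroup.normalizer ((V'.map H.subtype : Subgroup X) : Set X) ∧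
      Ctl H T (V'.map H.subtype) := by
  refine ⟨?_, ?_, ctl_up hTH h.2.2⟩
  · rintro _ ⟨v, hv, rfl⟩
    exact h.1 hv
  · intro t ht
    have h1 : t ∈ (Subgroup.normalizer ((V' : Subgroup H) : Set H)).map H.subtype :=
      ⟨⟨t, hTH ht⟩, h.2.1 ht, rfl⟩
    rw [map_normalizer_subtype] at h1
    exact h1.2

universe u

theorem exists_centric [Fact p.Prime]
    (𝒮 : ∀ (X : Type u) [Group X], Prop)
    (hSsub : ∀ (X : Type u) [Group X] [Finite X] (Y : Subgroup X), 𝒮 X → 𝒮 Y)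
    (hSquot : ∀ (X : Type u) [Group X] [Finite X] (N : Subgroup X) [N.Normal], 𝒮 X → 𝒮 (X ⧸ N))
    (hW : ∀ (X : Type u) [Group X] [Finite X], 𝒮 X → ∀ S : Subgroup X, IsSyl p S ⊤ → S ≠ ⊥ →
      ∃ Q, Q ≠ ⊥ ∧ Nrm S Q) :
    ∀ (n : ℕ) (X : Type u) [Group X] [Finite X], Nat.card X = n → 𝒮 X →
      ∀ S : Subgroup X, IsSyl p S ⊤ → ∃ Q, Nrm S Q ∧ S ⊓ Subgroup.centralizer (Q : Set X) ≤ Q := by
  intro n
  induction n using Nat.strong_induction_on with
  | _ n ih =>
  intro X _ _ hn hX S hS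
  obtain ⟨Q, hQ, hmax⟩ := exists_largest S
  refine ⟨Q, hQ, ?_⟩
  have hcard : ∀ H : Subgroup X, H ≠ ⊤ → Nat.card H < n := by
    intro H hH
    rw [← hn, ← Subgroup.card_top (G := X)]
    exact card_lt_of_lt (lt_top_iff_ne_top.2 hH)
  by_cases hM : Subgroup.normalizer (Q : Set X) = ⊤
  · have hQn : Q.Normal := Subgroup.normalizer_eq_top_iff.1 hM
    by_cases hC : Subgroup.centralizer (Q : Set X) = ⊤
    · by_cases hQb : Q = ⊥
      · by_cases hSb : S = ⊥
        · rw [hSb]; exact inf_le_left.trans bot_le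
        · obtain ⟨Q', hQ'b, hQ'⟩ := hW X hX S hS hSb
          exact absurd (le_bot_iff.1 (hQb ▸ hmax Q' hQ')) hQ'b
      · set π := QuotientGroup.mk' Q with hπ
        have hlt : Nat.card (X ⧸ Q) < n := by
          rw [← hn, ← Q.card_mul_index, ← Subgroup.index_eq_card]
          have h1 : 1 < Nat.card Q := by
            rw [Subgroup.one_lt_card_iff_ne_bot]; exact hQb
          have h2 : 0 < Q.index := Nat.pos_of_ne_zero Q.index_ne_zero_of_finite
          nlinarith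
        obtain ⟨Vb, hVb, hcen⟩ := ih (Nat.card (X ⧸ Q)) hlt (X ⧸ Q) rfl (hSquot X Q hX) (S.map π)
          (isSyl_map_surjective hS π (QuotientGroup.mk'_surjective Q))
        have hV : Nrm S (Vb.comap π) := by
          refine ⟨?_, ?_, ?_⟩
          · intro x hx
            obtain ⟨s, hs, e⟩ := hVb.1 (show π x ∈ Vb from hx)
            have h1 : s⁻¹ * x ∈ Q := by
              rw [← QuotientGroup.ker_mk' Q, MonoidHom.mem_ker, ← hπ, map_mul, map_inv, e, inv_mul_cancel]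
            have h2 : x = s * (s⁻¹ * x) := by group
            rw [h2]
            exact S.mul_mem hs (hQ.1 h1)
          · intro s hs
            exact Subgroup.le_normalizer_comap π (show π s ∈ _ from hVb.2.1 ⟨s, hs, rfl⟩)
          · rw [ctl_top_iff]
            intro A hA g hgA
            obtain ⟨y, hy, c, hc, e⟩ := relM_of_sup_eq_top' hS hQ.1 (by rw [hC, top_sup_eq])
              (Subgroup.normalizer (Vb : Set (X ⧸ Q))) hVb.2.1 (ctl_top_iff.1 hVb.2.2) A hA g hgA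
            exact ⟨y, Subgroup.le_normalizer_comap π hy, c, hc, e⟩
        have hVQ := hmax _ hV
        have hVbot : Vb = ⊥ := by
          rw [eq_bot_iff]
          intro v hv
          obtain ⟨x, rfl⟩ := QuotientGroup.mk'_surjective Q v
          have h1 : x ∈ Q := hVQ hv
          rw [Subgroup.mem_bot]
          exact (QuotientGroup.eq_one_iff x).2 h1
        intro s hs
        have h1 : π s ∈ S.map π ⊓ Subgroup.centralizer (Vb : Set (X ⧸ Q)) := by
          refine ⟨⟨s, hs.1, rfl⟩, ?_⟩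
          rw [hVbot]
          intro v hv
          rw [SetLike.mem_coe, Subgroup.mem_bot] at hv
          rw [hv, one_mul, mul_one]
        have h2 := hcen h1
        rw [hVbot, Subgroup.mem_bot] at h2
        exact (QuotientGroup.eq_one_iff s).1 h2
    · set C := Subgroup.centralizer (Q : Set X) with hCdef
      have hCn : C.Normal := inferInstance
      have hsyl : IsSyl p (S ⊓ C) C := isSyl_inf_of_normal hS le_top (top_le_normalizer hCn)
      obtain ⟨V', hV', hcen⟩ := ih (Nat.card C) (hcard C hC) C rfl (hSsub X C hX) _ (isSyl_subgroupOf hsyl)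
      obtain ⟨h1, h2, h3⟩ := nrm_up inf_le_right hV'
      obtain ⟨W, hVW, -, hW'⟩ := exists_of_normal hCn hS h1 h3
      have h4 := centric_up inf_le_right hcen (hVW.trans (hmax W hW'))
      intro x hx
      exact h4 ⟨⟨hx.1, hx.2⟩, hx.2⟩
  · set M := Subgroup.normalizer (Q : Set X) with hMdef
    have hsyl : IsSyl p S M := hS.of_le hQ.2.1 le_top
    obtain ⟨V', hV', hcen⟩ := ih (Nat.card M) (hcard M hM) M rfl (hSsub X M hX) _ (isSyl_subgroupOf hsyl)
    obtain ⟨h1, h2, h3⟩ := nrm_up hQ.2.1 hV'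
    exact centric_up hQ.2.1 hcen (hmax _ ⟨h1, h2, ctl_comp hQ.2.2 h3⟩)


section radical

variable {G : Type*} [Group G] [Finite G] [Fact p.Prime]

theorem pow_relIndex_mem_of_le_normalizer {Y X₁ : Subgroup G} (hn : X₁ ≤ Subgroup.normalizer (Y : Set G))
    {d : G} (hd : d ∈ X₁) : d ^ Y.relIndex X₁ ∈ Y := by
  have : (Y.subgroupOf X₁).Normal := Subgroup.normal_subgroupOf_of_le_normalizer hn
  have := Subgroup.pow_index_mem (Y.subgroupOf X₁) ⟨d, hd⟩
  rw [Subgroup.mem_subgroupOf] at this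
  exact this

theorem exists_relIndex_sup_eq_pow {D Y : Subgroup G} (hD : IsPGroup p D)
    (hn : D ≤ Subgroup.normalizer (Y : Set G)) : ∃ k : ℕ, Y.relIndex (D ⊔ Y) = p ^ k := by
  have hn' : D ⊔ Y ≤ Subgroup.normalizer (Y : Set G) := sup_le hn Subgroup.le_normalizer
  have : (Y.subgroupOf (D ⊔ Y)).Normal := Subgroup.normal_subgroupOf_of_le_normalizer hn'
  have hq : IsPGroup p (↥(D ⊔ Y) ⧸ Y.subgroupOf (D ⊔ Y)) := by
    intro q
    obtain ⟨x, rfl⟩ := QuotientGroup.mk'_surjective _ q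
    obtain ⟨d, hd, y, hy, e⟩ := mem_sup_of_le_normalizer hn x.2
    obtain ⟨k, hk⟩ := hD ⟨d, hd⟩
    have hk' : d ^ p ^ k = 1 := by simpa using congrArg Subtype.val hk
    refine ⟨k, ?_⟩
    have h1 : QuotientGroup.mk' (Y.subgroupOf (D ⊔ Y)) x =
        QuotientGroup.mk' (Y.subgroupOf (D ⊔ Y)) ⟨d, le_sup_left (a := D) (b := Y) hd⟩ := by
      symm
      rw [QuotientGroup.mk'_apply, QuotientGroup.mk'_apply, QuotientGroup.eq, Subgroup.mem_subgroupOf]
      simp only [Subgroup.coe_mul, Subgroup.coe_inv, e]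
      simpa using hy
    rw [h1, ← map_pow]
    have h2 : (⟨d, le_sup_left (a := D) (b := Y) hd⟩ : ↥(D ⊔ Y)) ^ p ^ k = 1 := Subtype.ext (by simpa using hk')
    rw [h2, map_one]
  obtain ⟨n, hn'⟩ := (IsPGroup.iff_card).1 hq
  exact ⟨n, by rw [Subgroup.relIndex, Subgroup.index_eq_card, hn']⟩

/-- the largest member of `Nrm P`, if centric, is radical -/
theorem radical_of_largest {P Q : Subgroup G} (hP : IsSyl p P ⊤) (hQ : Nrm P Q)
    (hmax : ∀ Q', Nrm P Q' → Q' ≤ Q) (hcen : P ⊓ Subgroup.centralizer (Q : Set G) ≤ Q)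
    (X₁ : Subgroup G) (hX₁M : X₁ ≤ Subgroup.normalizer (Q : Set G))
    (hinv : ∀ n ∈ Subgroup.normalizer (Q : Set G), cj n X₁ = X₁)
    (hle : Q ⊔ Subgroup.centralizer (Q : Set G) ≤ X₁)
    (hidx : ∃ k : ℕ, (Q ⊔ Subgroup.centralizer (Q : Set G)).relIndex X₁ = p ^ k) :
    X₁ = Q ⊔ Subgroup.centralizer (Q : Set G) := by
  set M := Subgroup.normalizer (Q : Set G) with hM
  set C := Subgroup.centralizer (Q : Set G) with hC
  have hPM : IsSyl p P M := hP.of_le hQ.2.1 le_top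
  have hCM : C ≤ M := Subgroup.centralizer_le_normalizer _
  have hMC : M ≤ Subgroup.normalizer (C : Set G) :=
    Cfsg.Agent.Lib.Helper39KInfCent.normalizer_le_normalizer_centralizer Q
  have hMX : M ≤ Subgroup.normalizer (X₁ : Set G) := fun n hn => mem_normalizer_iff_cj.2 (hinv n hn)
  have hZ : IsSyl p (P ⊓ C) C := isSyl_inf_of_normal hPM hCM hMC
  obtain ⟨K, hKC, hKp, hfac, hKinv⟩ := exists_pcomplement_of_central hZ (by
    intro c hc z hz
    exact hc z (hcen hz))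
  have hMK : M ≤ Subgroup.normalizer (K : Set G) := fun n hn => mem_normalizer_iff_cj.2 (hKinv n (hMC hn))
  have hQp : IsPGroup p Q := hP.2.1.to_le hQ.1
  have hMY : M ≤ Subgroup.normalizer ((Q ⊔ C : Subgroup G) : Set G) := by
    intro n hn
    rw [mem_normalizer_iff_cj, cj_sup, mem_normalizer_iff_cj.1 hn, mem_normalizer_iff_cj.1 (hMC hn)]
  obtain ⟨k, hk⟩ := hidx
  have hfacX : ∀ d ∈ X₁, ∃ t ∈ P ⊓ X₁, ∃ c ∈ K, d = t * c := by
    apply exists_mul_of_pgroup_quotient hPM hX₁M hMX (hX₁M.trans hMK)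
    intro d hd
    have h1 := pow_relIndex_mem_of_le_normalizer (hX₁M.trans hMY) hd
    rw [hk] at h1
    obtain ⟨q, hq, c, hc, e⟩ := mem_sup_of_le_normalizer (hQ.1.trans (hQ.2.1.trans hMC)) h1
    obtain ⟨z, hz, k₀, hk₀, rfl⟩ := hfac c hc
    obtain ⟨j, hj⟩ := hQp ⟨q * z, Q.mul_mem hq (hcen hz)⟩
    have hj' : (q * z) ^ p ^ j = 1 := by simpa using congrArg Subtype.val hj
    refine ⟨k + j, ?_⟩
    have hcomm : Commute (q * z) k₀ := (hKC hk₀ (q * z) (Q.mul_mem hq (hcen hz)))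
    rw [pow_add, pow_mul, e, ← mul_assoc, hcomm.mul_pow, hj', one_mul]
    exact K.pow_mem hk₀ _
  set Q₁ := P ⊓ X₁ with hQ₁
  have hQ₁p : IsPGroup p Q₁ := hP.2.1.to_le inf_le_left
  have hdisj : Q₁ ⊓ K = ⊥ := by
    apply (Subgroup.disjoint_of_coprime_natCard _).eq_bot
    obtain ⟨j, hj⟩ := hQ₁p.exists_card_eq
    rw [hj]
    exact (Nat.Coprime.pow_right j hKp).symm
  have hKX : K ≤ X₁ := hKC.trans (le_sup_right.trans hle)
  have hctl : Ctl X₁ Q₁ Q₁ := by
    intro A hA n hn hnA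
    obtain ⟨t, ht, c, hc, rfl⟩ := hfacX n hn
    refine ⟨t, ⟨ht.2, Subgroup.le_normalizer ht⟩, c, ⟨hKX hc, ?_⟩, rfl⟩
    have h1 : cj c A ≤ Q₁ := by
      rw [cj_mul, cj_le_iff, cj_eq_of_mem (Q₁.inv_mem ht)] at hnA
      exact hnA
    intro a ha
    have h2 : c * a * c⁻¹ * a⁻¹ ∈ Q₁ ⊓ K := by
      refine ⟨Q₁.mul_mem (h1 (conj_mem_cj ha)) (Q₁.inv_mem (hA ha)), ?_⟩
      have h3 : a * c⁻¹ * a⁻¹ ∈ K := by
        have h4 := mem_normalizer_iff_cj.1 (hMK (hQ.2.1 (hA ha).1))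
        rw [← h4]
        exact conj_mem_cj (K.inv_mem hc)
      have h5 : c * a * c⁻¹ * a⁻¹ = c * (a * c⁻¹ * a⁻¹) := by group
      rw [h5]
      exact K.mul_mem hc h3
    rw [hdisj, Subgroup.mem_bot] at h2
    calc a * c = (c * a * c⁻¹ * a⁻¹)⁻¹ * (c * a) := by group
      _ = c * a := by rw [h2]; group
  have h2 : Ctl M P Q₁ := ctl_of_normal_rel hX₁M hMX hPM (inf_le_right.trans hX₁M) inf_le_right hctl
  have h3 : Nrm P Q₁ := by
    refine ⟨inf_le_left, ?_, ctl_comp hQ.2.2 h2⟩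
    intro s hs
    rw [mem_normalizer_iff_cj, hQ₁, cj_inf, cj_eq_of_mem hs, hinv s (hQ.2.1 hs)]
  have h4 := hmax _ h3
  apply le_antisymm _ hle
  intro x hx
  obtain ⟨t, ht, c, hc, rfl⟩ := hfacX x hx
  exact Subgroup.mul_mem _ (le_sup_left (a := Q) (b := C) (h4 ht)) (le_sup_right (a := Q) (b := C) (hKC hc))

/-- every member of `Nrm P` lies in every centric radical subgroup of `P` -/
theorem le_of_radical {P Q R : Subgroup G} (hP : IsSyl p P ⊤) (hQ : Nrm P Q) (hRP : R ≤ P)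
    (hRsyl : IsSyl p (R ⊓ Subgroup.centralizer (R : Set G)) (Subgroup.centralizer (R : Set G)))
    (hrad : ∀ X : Subgroup G, X ≤ Subgroup.normalizer (R : Set G) →
        (∀ n ∈ Subgroup.normalizer (R : Set G), cj n X = X) →
        R ⊔ Subgroup.centralizer (R : Set G) ≤ X →
        (∃ k : ℕ, (R ⊔ Subgroup.centralizer (R : Set G)).relIndex X = p ^ k) →
        X = R ⊔ Subgroup.centralizer (R : Set G)) : Q ≤ R := by
  apply le_of_inf_normalizer_le hP.2.1 hRP hQ.1 (hRP.trans hQ.2.1)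
  set D := Q ⊓ Subgroup.normalizer (R : Set G) with hD
  set C := Subgroup.centralizer (R : Set G) with hC
  set M := Subgroup.normalizer (R : Set G) with hM
  have hCM : C ≤ M := Subgroup.centralizer_le_normalizer _
  have hMC : M ≤ Subgroup.normalizer (C : Set G) :=
    Cfsg.Agent.Lib.Helper39KInfCent.normalizer_le_normalizer_centralizer R
  have hMY : M ≤ Subgroup.normalizer ((R ⊔ C : Subgroup G) : Set G) := by
    intro n hn
    rw [mem_normalizer_iff_cj, cj_sup, mem_normalizer_iff_cj.1 hn, mem_normalizer_iff_cj.1 (hMC hn)]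
  have hDp : IsPGroup p D := hP.2.1.to_le (inf_le_left.trans hQ.1)
  have hX := hrad (D ⊔ (R ⊔ C)) (sup_le inf_le_right (sup_le Subgroup.le_normalizer hCM)) (by
      intro n hn
      apply cj_eq_of_le_of_finite
      rw [cj_sup, mem_normalizer_iff_cj.1 (hMY hn)]
      apply sup_le _ le_sup_right
      obtain ⟨h, hh, c, hc, rfl⟩ := hQ.2.2 R hRP n trivial (by rw [mem_normalizer_iff_cj.1 hn]; exact hRP)
      have hhM : h ∈ M := by
        have := M.mul_mem hn (M.inv_mem (hCM hc.2))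
        simpa using this
      have h1 : cj c D ≤ D ⊔ C := cj_le_of_mem (le_sup_right (a := D) (b := C) hc.2) le_sup_left
      have h2 : cj h (D ⊔ C) = D ⊔ C := by
        rw [cj_sup, mem_normalizer_iff_cj.1 (hMC hhM), hD, cj_inf, mem_normalizer_iff_cj.1 hh.2,
          cj_eq_of_mem hhM]
      rw [cj_mul]
      calc cj h (cj c D) ≤ cj h (D ⊔ C) := cj_mono h1
        _ = D ⊔ C := h2
        _ ≤ D ⊔ (R ⊔ C) := sup_le_sup_left le_sup_right _) le_sup_right
    (exists_relIndex_sup_eq_pow hDp (inf_le_right.trans hMY))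
  intro d hd
  have h1 : d ∈ R ⊔ C := hX ▸ (le_sup_left (a := D) (b := R ⊔ C) hd)
  obtain ⟨r, hr, c, hc, rfl⟩ := mem_sup_of_le_normalizer (Subgroup.le_normalizer.trans hMC) h1
  apply R.mul_mem hr
  have hcP : c ∈ P := by
    have := P.mul_mem (P.inv_mem (hRP hr)) (hQ.1 hd.1)
    simpa using this
  -- `P ⊓ C ≤ R`
  obtain ⟨y, hy, hle⟩ := hRsyl.exists_conj_le (Q := P ⊓ C) inf_le_right (hP.2.1.to_le inf_le_left)
  have h2 : cj y⁻¹ (R ⊓ C) = R ⊓ C := by
    rw [cj_inf, cj_eq_of_mem (C.inv_mem hy), mem_normalizer_iff_cj.1 (M.inv_mem (hCM hy))]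
  rw [cj_le_iff, h2] at hle
  exact (hle ⟨hcP, hc⟩).1

end radical

end Cfsg.Agent.Lib.Helper39Constrained
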