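import Mathlib
import Cfsg.Agent.Lib.Helper39Constrained
import Cfsg.Agent.Lib.Helper51Qd

set_option autoImplicit false

namespace Cfsg.Agent.Lib.Helper39QdFree

open Cfsg Cfsg.Agent.Lib.Helper39Sylow Cfsg.Agent.Lib.Helper39Rel Cfsg.Agent.Lib.Helper39Core
  Cfsg.Agent.Lib.Helper39Section Cfsg.Agent.Lib.Helper51Qd

variable {p : ℕ}

theorem exists_pgroup_of_constrained {X E L : Type*} [Group X] [Finite X] [Group E] [Group L] [Fact p.Prime]
    (ψ₀ : X →* E) (hψ₀ : Function.Surjective ψ₀) (β : E →* L) (hβ : Function.Surjective β)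
    (hV : IsPGroup p β.ker) (hcon : Subgroup.centralizer (β.ker : Set E) ≤ β.ker) :
    ∃ Q : Subgroup X, IsPGroup p Q ∧ (∀ l : L, ∃ a ∈ Subgroup.normalizer (Q : Set X), β (ψ₀ a) = l) ∧
      ∀ c ∈ Subgroup.centralizer (Q : Set X), β (ψ₀ c) = 1 := by
  set ψ := β.comp ψ₀ with hψ
  have hVn : ψ.ker.Normal := inferInstance
  obtain ⟨S, hS⟩ := exists_isSyl (p := p) (⊤ : Subgroup X)
  refine ⟨S ⊓ ψ.ker, hS.2.1.to_le inf_le_left, ?_, ?_⟩
  · intro l
    obtain ⟨e, rfl⟩ := hβ l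
    obtain ⟨x, rfl⟩ := hψ₀ e
    obtain ⟨c, hc, n, hn, rfl⟩ := frattini_rel hS le_top (top_le_normalizer hVn) (Subgroup.mem_top x)
    refine ⟨n, hn.2, ?_⟩
    have h1 : β (ψ₀ c) = 1 := hc
    rw [map_mul, map_mul, h1, one_mul]
  · intro c hc
    apply hcon
    intro v hv
    obtain ⟨k, rfl⟩ := hψ₀ v
    have hk : k ∈ ψ.ker := hv
    obtain ⟨t, ht, r, hr, rfl⟩ := exists_mul_of_pgroup_quotient (C := ψ₀.ker) hS le_top (top_le_normalizer hVn)
      (le_top.trans (top_le_normalizer (inferInstance : ψ₀.ker.Normal))) (by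
        intro d hd
        obtain ⟨j, hj⟩ := hV ⟨ψ₀ d, hd⟩
        refine ⟨j, ?_⟩
        rw [MonoidHom.mem_ker, map_pow]
        simpa using congrArg Subtype.val hj) k hk
    have hr' : ψ₀ r = 1 := hr
    rw [map_mul, hr', mul_one, ← map_mul, ← map_mul, hc t ht]

theorem exists_section_of_normalizer {G L : Type*} [Group G] [Group L] (K : Subgroup G) (Q' : Subgroup K)
    (ψ : K →* L)
    (hsurj : ∀ l : L, ∃ a ∈ Subgroup.normalizer (Q' : Set K), ψ a = l)
    (hcen : ∀ c ∈ Subgroup.centralizer (Q' : Set K), ψ c = 1) :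
    ∃ (H K' : Subgroup G) (_ : (K'.subgroupOf H).Normal),
      Subgroup.centralizer ((Q'.map K.subtype : Subgroup G) : Set G) ≤ K' ∧ K' ≤ H ∧
      H ≤ Subgroup.normalizer ((Q'.map K.subtype : Subgroup G) : Set G) ∧
      Nonempty ((↥H ⧸ K'.subgroupOf H) ≃* L) := by
  set Q := Q'.map K.subtype with hQ
  set A' := Subgroup.normalizer (Q' : Set K) with hA'
  set A := A'.map K.subtype with hA
  set B := (A' ⊓ ψ.ker).map K.subtype with hB
  set C := Subgroup.centralizer (Q : Set G) with hC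
  have hAN : A ≤ Subgroup.normalizer (Q : Set G) := by
    rw [hA, hA', map_normalizer_subtype]; exact inf_le_right
  have hAC : A ≤ Subgroup.normalizer (C : Set G) :=
    hAN.trans (Cfsg.Agent.Lib.Helper39KInfCent.normalizer_le_normalizer_centralizer Q)
  have hBA : B ≤ A := Subgroup.map_mono inf_le_left
  have hAB : A ≤ Subgroup.normalizer (B : Set G) := by
    rintro _ ⟨a, ha, rfl⟩
    rw [mem_normalizer_iff_cj, hB, ← map_cj, cj_inf, cj_eq_of_mem ha,
      cj_of_normal (inferInstance : ψ.ker.Normal)]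
  have hHK : A ⊔ C ≤ Subgroup.normalizer ((B ⊔ C : Subgroup G) : Set G) := by
    apply sup_le
    · intro a ha
      rw [mem_normalizer_iff_cj, cj_sup, mem_normalizer_iff_cj.1 (hAB ha), mem_normalizer_iff_cj.1 (hAC ha)]
    · exact le_sup_right.trans Subgroup.le_normalizer
  have hn : ((B ⊔ C).subgroupOf (A ⊔ C)).Normal := Subgroup.normal_subgroupOf_of_le_normalizer hHK
  refine ⟨A ⊔ C, B ⊔ C, hn, le_sup_right, sup_le_sup_right hBA C,
    sup_le hAN (Subgroup.centralizer_le_normalizer _), ?_⟩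
  have key : ∀ x ∈ A', (x : G) ∈ B ⊔ C ↔ ψ x = 1 := by
    intro x hx
    constructor
    · intro h
      obtain ⟨_, ⟨b, hb, rfl⟩, c, hc, e⟩ := mem_sup_of_le_normalizer (hBA.trans hAC) h
      have h1 : b⁻¹ * x ∈ Subgroup.centralizer (Q' : Set K) := by
        intro q hq
        apply Subtype.ext
        have h2 : ((b⁻¹ * x : K) : G) = c := by
          rw [Subgroup.coe_mul, e]
          simp
        show (q : G) * ((b⁻¹ * x : K) : G) = ((b⁻¹ * x : K) : G) * (q : G)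
        rw [h2]
        exact hc q.1 ⟨q, hq, rfl⟩
      have h3 := hcen _ h1
      have h4 : ψ b = 1 := hb.2
      rw [map_mul, map_inv, h4, inv_one, one_mul] at h3
      exact h3
    · intro h
      exact le_sup_left (a := B) (b := C) ⟨x, ⟨hx, h⟩, rfl⟩
  let ι : ↥A' →* ↥(A ⊔ C) := (K.subtype.comp A'.subtype).codRestrict (A ⊔ C)
    (fun a => le_sup_left (a := A) (b := C) ⟨a.1, a.2, rfl⟩)
  let φ₁ : ↥A' →* ↥(A ⊔ C) ⧸ (B ⊔ C).subgroupOf (A ⊔ C) := (QuotientGroup.mk' _).comp ι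
  let φ₂ : ↥A' →* L := ψ.comp A'.subtype
  have h₁ : Function.Surjective φ₁ := by
    intro q
    obtain ⟨h, rfl⟩ := QuotientGroup.mk'_surjective _ q
    obtain ⟨_, ⟨a, ha, rfl⟩, c, hc, e⟩ := mem_sup_of_le_normalizer hAC h.2
    refine ⟨⟨a, ha⟩, ?_⟩
    show QuotientGroup.mk' _ (ι ⟨a, ha⟩) = QuotientGroup.mk' _ h
    rw [QuotientGroup.mk'_apply, QuotientGroup.mk'_apply, QuotientGroup.eq, Subgroup.mem_subgroupOf]
    have h2 : (((ι ⟨a, ha⟩)⁻¹ * h : ↥(A ⊔ C)) : G) = c := by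
      rw [Subgroup.coe_mul, e]
      simp [ι]
    rw [h2]
    exact le_sup_right (a := B) (b := C) hc
  have h₂ : Function.Surjective φ₂ := by
    intro l
    obtain ⟨a, ha, e⟩ := hsurj l
    exact ⟨⟨a, ha⟩, e⟩
  have hker : φ₁.ker = φ₂.ker := by
    ext a
    rw [MonoidHom.mem_ker, MonoidHom.mem_ker]
    show QuotientGroup.mk' _ (ι a) = 1 ↔ ψ a.1 = 1
    rw [QuotientGroup.mk'_apply, QuotientGroup.eq_one_iff, Subgroup.mem_subgroupOf]
    exact key a.1 a.2
  exact ⟨(QuotientGroup.quotientKerEquivOfSurjective φ₁ h₁).symm.trans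
    ((QuotientGroup.quotientMulEquivOfEq hker).trans (QuotientGroup.quotientKerEquivOfSurjective φ₂ h₂))⟩

theorem centralizer_ker_blk_le (p : ℕ) [Fact p.Prime] :
    Subgroup.centralizer (((blk : ↥(Cfsg.qdOver (ZMod p)) →* _).ker : Subgroup ↥(Cfsg.qdOver (ZMod p))) :
      Set ↥(Cfsg.qdOver (ZMod p))) ≤ (blk : ↥(Cfsg.qdOver (ZMod p)) →* _).ker := by
  intro M hM
  obtain ⟨A, b, rfl⟩ : ∃ A b, mk A b = M := ⟨_, _, mk_blk_tr M⟩
  rw [mem_ker_blk_iff']
  have key : ∀ v : Fin 2 → ZMod p, (A : Matrix (Fin 2) (Fin 2) (ZMod p)).mulVec v = v := by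
    intro v
    have h1 := hM (mk 1 v) ((mem_ker_blk_iff' _).2 ⟨v, rfl⟩)
    rw [mk_mul_mk, mk_mul_mk] at h1
    have h2 := (mk_injective h1).2
    simp only [Matrix.SpecialLinearGroup.coe_one, Matrix.one_mulVec] at h2
    have h3 : b + v = (A : Matrix (Fin 2) (Fin 2) (ZMod p)).mulVec v + b := h2
    have h4 : (A : Matrix (Fin 2) (Fin 2) (ZMod p)).mulVec v + b = v + b := by rw [← h3, add_comm]
    exact add_right_cancel h4
  have hA : A = 1 := by
    apply Matrix.SpecialLinearGroup.ext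
    intro i j
    have := congrFun (key (Pi.single j 1)) i
    rw [Matrix.mulVec_single_one] at this
    rw [Matrix.SpecialLinearGroup.coe_one, Matrix.one_apply]
    simpa [Pi.single_apply, eq_comm] using this
  exact ⟨b, by rw [hA]⟩

/-- if no `N_G(Q)/C_G(Q)` (`Q` a `p`-subgroup) involves `SL₂(p)`, then `Qd(p)` is not involved in `G` -/
theorem not_involves_qd {G : Type*} [Group G] [Finite G] [Fact p.Prime]
    (hfree : ∀ Q : Subgroup G, IsPGroup p ↥Q → ¬ ∃ (H K : Subgroup G) (_ : (K.subgroupOf H).Normal),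
      Subgroup.centralizer (Q : Set G) ≤ K ∧ K ≤ H ∧ H ≤ Subgroup.normalizer (Q : Set G) ∧
      Nonempty ((↥H ⧸ K.subgroupOf H) ≃* Matrix.SpecialLinearGroup (Fin 2) (ZMod p))) :
    ¬ Involves ↥(Cfsg.qd p) G := by
  rintro ⟨K, R, hR, ⟨e⟩⟩
  obtain ⟨Q', hQ'p, h1, h2⟩ := exists_pgroup_of_constrained (p := p)
    ((e.toMonoidHom.comp (QuotientGroup.mk' (R.subgroupOf K)) : ↥K →* ↥(Cfsg.qdOver (ZMod p))))
    (e.surjective.comp (QuotientGroup.mk'_surjective _)) (blk : ↥(Cfsg.qdOver (ZMod p)) →* _) blk_surjective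
    ker_blk_isPGroup (centralizer_ker_blk_le p)
  exact hfree (Q'.map K.subtype) (hQ'p.map _) (exists_section_of_normalizer K Q'
    ((blk : ↥(Cfsg.qdOver (ZMod p)) →* _).comp
      (e.toMonoidHom.comp (QuotientGroup.mk' (R.subgroupOf K)) : ↥K →* ↥(Cfsg.qdOver (ZMod p)))) h1 h2)

end Cfsg.Agent.Lib.Helper39QdFree
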