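import Mathlib
import Cfsg.Prelude.Def_OddOrderLocal
import Cfsg.Agent.Lib.Helper3NarrowAut
import Cfsg.Agent.Lib.Helper3NarrowCube
import Cfsg.Agent.Lib.Helper89Omega

set_option autoImplicit false

/-! B-G Theorem 5.5 (automorphisms of odd order of narrow `p`-groups), ambient form (= S1454). -/

namespace Cfsg.Agent.Lib.Helper3NarrowMain

universe u

open scoped commutatorElement
open Cfsg Helper3NarrowAut

theorem index_pCore_coprime {Q : Type*} [Group Q] [Finite Q] (p : ℕ) [hp : Fact p.Prime]
    (hcle : commutator Q ≤ pCore p Q) : ((pCore p Q).index).Coprime p := by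
  have hPp : IsPGroup p (pCore p Q) := Helper60Core.pCore_isPGroup p
  obtain ⟨S, hS⟩ := hPp.exists_le_sylow
  haveI hSn : (S : Subgroup Q).Normal := Helper3PGroup.normal_of_commutator_le (hcle.trans hS)
  have hSP : (S : Subgroup Q) ≤ pCore p Q := Helper60Core.le_pCore hSn S.isPGroup'
  have heq : pCore p Q = S := le_antisymm hS hSP
  rw [heq, Nat.coprime_comm, Nat.Prime.coprime_iff_not_dvd hp.out]
  exact S.not_dvd_index

theorem main1454 {G : Type u} [Group G] [Finite G] (p : ℕ) [hp : Fact p.Prime] (hp2 : p ≠ 2)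
    (R A : Subgroup G) (hR : IsPGroup p R) (hRn : IsNarrow p R)
    (hA : A ≤ Subgroup.normalizer (R : Set G)) (hAs : Group.IsSolvable A)
    (hAodd : Odd (Nat.card A)) (hfaith : A ⊓ Subgroup.centralizer (R : Set G) = ⊥) :
    (commutator ↥A ≤ pCore p ↥A ∧ ((pCore p ↥A).index).Coprime p) ∧
      (¬ PRankLE p 2 R → ∀ a ∈ A, (orderOf a).Coprime p → orderOf a ∣ p - 1) ∧
      ((Nat.card A).Prime → ¬ Nat.card A ∣ p * (p - 1) →
        2 * Nat.card A ∣ p + 1 ∧
          (⁅R, A⁆ = R → ¬ IsMulCommutative R → Nat.card R = p ^ 3)) := by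
  have hpp := hp.out
  set ρ : A →* MulAut R := Helper3AutOdd.conjHom R A hA with hρ
  have hker : ∀ a : A, ρ a = 1 → a = 1 := by
    intro a ha
    have h1 : (a : G) ∈ A ⊓ Subgroup.centralizer (R : Set G) := by
      refine ⟨a.2, ?_⟩
      show (a : G) ∈ Subgroup.centralizer (R : Set G)
      rw [Subgroup.mem_centralizer_iff]
      intro x hx
      have h2 := congrArg (fun f : MulAut R => ((f ⟨x, hx⟩ : R) : G)) ha
      have h3 : (a : G) * x * (a : G)⁻¹ = x := h2
      calc x * (a : G) = ((a : G) * x * (a : G)⁻¹) * a := by rw [h3]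
        _ = a * x := by group
    rw [hfaith, Subgroup.mem_bot] at h1
    exact Subtype.ext h1
  have hinj : Function.Injective ρ := (injective_iff_map_eq_one ρ).mpr hker
  have hmax : PRankLE p 2 R ∨ HasMaxSq p R := by
    by_cases hr : PRankLE p 2 R
    · exact Or.inl hr
    · exact Or.inr (hasMaxSq_of_narrow hR hRn hr)
  have part2 : ¬ PRankLE p 2 R → ∀ a ∈ A, (orderOf a).Coprime p → orderOf a ∣ p - 1 := by
    intro hr a ha hcop
    have hcop' : (orderOf (ρ ⟨a, ha⟩)).Coprime p := by
      rw [orderOf_injective ρ hinj, ← Subgroup.orderOf_coe]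
      exact hcop
    have h1 := aut_pow hp2 hR hr (hmax.resolve_left hr) (ρ ⟨a, ha⟩) hcop'
    rw [← map_pow] at h1
    have h2 := hker _ h1
    apply orderOf_dvd_of_pow_eq_one
    exact congrArg Subtype.val h2
  refine ⟨?_, part2, ?_⟩
  · have hcp : IsPGroup p (commutator A) := by
      apply Helper89Omega.isPGroup_of_coprime_trivial
      intro c hc
      have hc' : (orderOf (c : A)).Coprime p := by rwa [Subgroup.orderOf_coe]
      exact Subtype.ext (hker _ (aut_comm hp2 hR hmax hAodd ρ c c.2 hc'))
    have hcle : commutator A ≤ pCore p A := Helper60Core.le_pCore inferInstance hcp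
    exact ⟨hcle, index_pCore_coprime p hcle⟩
  · intro hq hqn
    set q := Nat.card A with hqdef
    haveI : Fact q.Prime := ⟨hq⟩
    have hqp : q ≠ p := by
      intro h
      exact hqn (h ▸ Dvd.intro _ rfl)
    have hq1 : ¬ q ∣ p - 1 := fun h => hqn (Dvd.dvd.mul_left h p)
    obtain ⟨a, ha⟩ := exists_prime_orderOf_dvd_card' (G := A) q (dvd_refl _)
    have hcopa : (orderOf (a : G)).Coprime p := by
      rw [Subgroup.orderOf_coe, ha]
      exact (Nat.coprime_primes hq hpp).mpr hqp
    have hrk : PRankLE p 2 R := by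
      by_contra hr
      have := part2 hr a a.2 hcopa
      rw [Subgroup.orderOf_coe, ha] at this
      exact hq1 this
    have hα : orderOf (ρ a) = q := by rw [orderOf_injective ρ hinj, ha]
    have hdvd : q ∣ Nat.card (MulAut R) := hα ▸ orderOf_dvd_natCard (ρ a)
    have h1 := (Helper3AutRank.main hp2 hR hrk q hq hqp hdvd).1
    have h2 : p ^ 2 - 1 = (p - 1) * (p + 1) := by
      obtain ⟨k, rfl⟩ : ∃ k, p = k + 1 := ⟨p - 1, by have := hpp.one_lt; omega⟩
      have : (k + 1) ^ 2 = k * (k + 1 + 1) + 1 := by ring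
      rw [this]
      simp
    rw [h2] at h1
    have h3 : q ∣ p + 1 := (hq.dvd_mul.mp h1).resolve_left hq1
    have hq2 : q ≠ 2 := by
      intro h
      rw [h] at hAodd
      exact absurd hAodd (by decide)
    have h4 : 2 ∣ p + 1 := by
      have := hpp.eq_two_or_odd'.resolve_left hp2
      obtain ⟨k, hk⟩ := this
      exact ⟨k + 1, by omega⟩
    have h5 : 2 * q ∣ p + 1 :=
      Nat.Coprime.mul_dvd_of_dvd_of_dvd ((Nat.coprime_primes Nat.prime_two hq).mpr hq2.symm) h4 h3
    refine ⟨h5, ?_⟩
    intro hRA hncR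
    have hp3 : 3 < p := by
      have h6 := Nat.le_of_dvd (by omega) h5
      have h7 := hq.two_le
      omega
    apply Helper3NarrowCube.card_eq_cube hp3 hR hrk (ρ a) hq hα hqp hq1
    · intro N hN
      let K : Subgroup A :=
        { carrier := {b | ∀ x : R, x⁻¹ * ρ b x ∈ N}
          mul_mem' := by
            intro b c hb hc x
            have h6 : x⁻¹ * ρ (b * c) x = (x⁻¹ * ρ c x) * ((ρ c x)⁻¹ * ρ b (ρ c x)) := by
              rw [map_mul, MulAut.mul_apply]; group
            rw [h6]
            exact N.mul_mem (hc x) (hb _)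
          one_mem' := by
            intro x
            rw [map_one, MulAut.one_apply, inv_mul_cancel]
            exact N.one_mem
          inv_mem' := by
            intro b hb x
            have h6 := hb (ρ b⁻¹ x)
            have h7 : ρ b (ρ b⁻¹ x) = x := by
              rw [← MulAut.mul_apply, ← map_mul, mul_inv_cancel, map_one, MulAut.one_apply]
            rw [h7] at h6
            have h8 : x⁻¹ * ρ b⁻¹ x = ((ρ b⁻¹ x)⁻¹ * x)⁻¹ := by group
            rw [h8]
            exact N.inv_mem h6 }
      have haK : a ∈ K := hN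
      have ha1 : a ≠ 1 := by
        rintro rfl
        rw [orderOf_one] at ha
        exact hq.one_lt.ne ha
      have hKtop : ∀ b : A, b ∈ K := by
        intro b
        have h6 : b ∈ Subgroup.zpowers a := mem_zpowers_of_prime_card hqdef.symm ha1
        exact (Subgroup.zpowers_le.mpr haK) h6
      have hle : ⁅R, A⁆ ≤ N.map R.subtype := by
        rw [Subgroup.commutator_le]
        intro r hr b hb
        refine ⟨_, hKtop ⟨b, hb⟩ ⟨r⁻¹, R.inv_mem hr⟩, ?_⟩
        show (r⁻¹)⁻¹ * (b * r⁻¹ * b⁻¹) = ⁅r, b⁆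
        rw [commutatorElement_def]; group
      rw [hRA] at hle
      rw [eq_top_iff]
      intro x _
      obtain ⟨n, hn, hnx⟩ := hle x.2
      have : n = x := Subtype.ext hnx
      rw [← this]
      exact hn
    · by_contra hcon
      push Not at hcon
      exact hncR ⟨⟨hcon⟩⟩

end Cfsg.Agent.Lib.Helper3NarrowMain
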