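import Mathlib
import Cfsg.Agent.Lib.Helper12Hall

set_option autoImplicit false

namespace Cfsg.Agent.Lib.Helper70Hall

open Cfsg.Agent.Lib.Helper12Hall

/-- splitting a natural number into its `S`-part and `S'`-part -/
theorem nat_pi_split (N : ℕ) (hN : N ≠ 0) (S : Set ℕ) :
    ∃ m n : ℕ, N = m * n ∧ m.Coprime n ∧ (∀ p, p.Prime → p ∣ m → p ∈ S) ∧
      (∀ p, p.Prime → p ∣ n → p ∉ S) := by
  classical
  refine ⟨∏ x ∈ N.primeFactors.filter (· ∈ S), x ^ (N.factorization x),
    ∏ x ∈ N.primeFactors.filter (¬ · ∈ S), x ^ (N.factorization x), ?_, ?_, ?_, ?_⟩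
  · rw [Finset.prod_filter_mul_prod_filter_not]
    exact (Nat.prod_factorization_pow_eq_self hN).symm
  · rw [Nat.coprime_prod_left_iff]
    intro x hx
    rw [Nat.coprime_prod_right_iff]
    intro y hy
    rw [Finset.mem_filter] at hx hy
    apply Nat.Coprime.pow
    rw [Nat.coprime_primes (Nat.prime_of_mem_primeFactors hx.1) (Nat.prime_of_mem_primeFactors hy.1)]
    rintro rfl
    exact hy.2 hx.2
  · intro p hp hd
    rw [Prime.dvd_finsetProd_iff hp.prime] at hd
    obtain ⟨x, hx, hd⟩ := hd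
    rw [Finset.mem_filter] at hx
    have := (Nat.prime_dvd_prime_iff_eq hp (Nat.prime_of_mem_primeFactors hx.1)).mp
      (hp.dvd_of_dvd_pow hd)
    rw [this]; exact hx.2
  · intro p hp hd
    rw [Prime.dvd_finsetProd_iff hp.prime] at hd
    obtain ⟨x, hx, hd⟩ := hd
    rw [Finset.mem_filter] at hx
    have := (Nat.prime_dvd_prime_iff_eq hp (Nat.prime_of_mem_primeFactors hx.1)).mp
      (hp.dvd_of_dvd_pow hd)
    rw [this]; exact hx.2

/-- Hall `S`-subgroups exist in finite solvable groups. -/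
theorem exists_hall_set {G : Type*} [Group G] [Finite G] [Group.IsSolvable G] (S : Set ℕ) :
    ∃ H : Subgroup G, (∀ p, p.Prime → p ∣ Nat.card H → p ∈ S) ∧
      (∀ p, p.Prime → p ∣ H.index → p ∉ S) ∧ (Nat.card H).Coprime H.index := by
  obtain ⟨m, n, hmn, hco, hm, hn⟩ := nat_pi_split (Nat.card G) Nat.card_pos.ne' S
  obtain ⟨H, hH⟩ := hall_exists m n hmn hco
  have hidx : H.index = n := by
    have h1 := H.card_mul_index
    rw [hH, hmn] at h1
    have hm0 : 0 < m := by rw [← hH]; exact Nat.card_pos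
    exact Nat.eq_of_mul_eq_mul_left hm0 h1
  refine ⟨H, ?_, ?_, ?_⟩
  · rw [hH]; exact hm
  · rw [hidx]; exact hn
  · rw [hH, hidx]; exact hco

end Cfsg.Agent.Lib.Helper70Hall
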