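import Mathlib
import Cfsg.Prelude.Def_OddOrderLocal
import Cfsg.Agent.Lib.Helper3OddRank
import Cfsg.Agent.Lib.Helper3DerFit
import Cfsg.Agent.Lib.Helper70Hall
import Cfsg.Agent.Lib.Helper1Hall

set_option autoImplicit false

/-! Solvable groups of odd order whose Fitting subgroup has rank at most 2 (B-G Theorem 4.20). -/

namespace Cfsg.Agent.Lib.Helper3RankTower

open scoped commutatorElement
open Cfsg

theorem rank_of_injective {p k : ℕ} {H K : Type*} [Group H] [Group K] (f : H →* K)
    (hf : Function.Injective f) (h : PRankLE p k K) : PRankLE p k H := by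
  intro E hEc hEe
  rw [← Subgroup.card_map_of_injective (K := E) hf]
  apply h
  · refine ⟨⟨?_⟩⟩
    rintro ⟨_, a, ha, rfl⟩ ⟨_, b, hb, rfl⟩
    apply Subtype.ext
    show f a * f b = f b * f a
    rw [← map_mul, ← map_mul]
    exact congrArg f (congrArg Subtype.val (hEc.is_comm.comm ⟨a, ha⟩ ⟨b, hb⟩))
  · rintro _ ⟨a, ha, rfl⟩
    rw [← map_pow, hEe a ha, map_one]

theorem le_normalizer_of_conj_mem {G : Type*} [Group G] {K T : Subgroup G}
    (h : ∀ g ∈ K, ∀ x ∈ T, g * x * g⁻¹ ∈ T) : K ≤ Subgroup.normalizer (T : Set G) := by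
  intro g hg
  rw [Subgroup.mem_normalizer_iff]
  intro x
  refine ⟨h g hg x, fun hx => ?_⟩
  have := h g⁻¹ (K.inv_mem hg) _ hx
  simpa [mul_assoc] using this

theorem characteristic_of_normal_coprime {G : Type*} [Group G] [Finite G] (H : Subgroup G)
    [H.Normal] (hc : (Nat.card H).Coprime H.index) : H.Characteristic := by
  rw [Subgroup.characteristic_iff_le_comap]
  intro φ x hx
  rw [Subgroup.mem_comap]
  apply Helper3DerFit.mem_of_pow_mem_coprime hc
  · have h1 : x ^ Nat.card H = 1 := by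
      have := pow_card_eq_one' (G := H) (x := ⟨x, hx⟩)
      exact congrArg Subtype.val this
    rw [← map_pow, h1, map_one]
    exact H.one_mem
  · exact Subgroup.pow_index_mem H _

section

variable {G : Type*} [Group G] [Finite G]

theorem pCore_two_eq_bot (hodd : Odd (Nat.card G)) : pCore 2 G = ⊥ := by
  obtain ⟨k, hk⟩ := (Helper1Fitting.pCore_isPGroup (G := G) 2).exists_card_eq
  have h1 : Odd (Nat.card (pCore 2 G)) := Odd.of_dvd_nat hodd (Subgroup.card_subgroup_dvd_card _)
  rw [hk] at h1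
  rcases Nat.eq_zero_or_pos k with h0 | h0
  · rw [h0, pow_zero] at hk
    exact Subgroup.card_eq_one.mp hk
  · exact absurd h1 (Nat.not_odd_iff_even.mpr (Nat.even_pow.mpr ⟨even_two, h0.ne'⟩))

theorem hyp_of_rank [Group.IsSolvable G] (hodd : Odd (Nat.card G))
    (hF : ∀ q : ℕ, q.Prime → PRankLE q 2 (pCore q G)) :
    ∀ t : ℕ, t.Prime → ∀ k ∈ commutator G, (orderOf k).Coprime t →
      k ∈ Subgroup.centralizer (pCore t G : Set G) := by
  intro t ht k hk hcop
  haveI : Fact t.Prime := ⟨ht⟩
  by_cases h2 : t = 2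
  · subst h2
    rw [pCore_two_eq_bot hodd, Subgroup.mem_centralizer_iff]
    intro x hx
    rw [Subgroup.mem_bot.mp hx, one_mul, mul_one]
  · apply Helper3AutOdd.centralizes_of_mem_commutator t h2 _ ⊤ (Helper1Fitting.pCore_isPGroup t)
      (hF t ht) _ _ _ k hk hcop
    · intro x _
      exact (Subgroup.normalizer_eq_top (H := pCore t G)) ▸ Subgroup.mem_top x
    · infer_instance
    · rw [Subgroup.card_top]; exact hodd

theorem tower [Group.IsSolvable G] (hodd : Odd (Nat.card G))
    (hF : ∀ q : ℕ, q.Prime → PRankLE q 2 (pCore q G))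
    (hDF : commutator G ≤ fittingSubgroup G) (p : ℕ) :
    ∃ N : Subgroup G, N.Characteristic ∧ IsPiHall {q | q.Prime ∧ p < q} N := by
  obtain ⟨H, hH1, hH2, hHc⟩ := Helper70Hall.exists_hall_set (G := G) {q | q.Prime ∧ p < q}
  have hcen : ∀ r : ℕ, r.Prime → r ≤ p → ∀ h ∈ H,
      h ∈ Subgroup.centralizer (pCore r G : Set G) := by
    intro r hr hrp h hh
    haveI : Fact r.Prime := ⟨hr⟩
    by_cases h2 : r = 2
    · subst h2
      rw [pCore_two_eq_bot hodd, Subgroup.mem_centralizer_iff]
      intro x hx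
      rw [Subgroup.mem_bot.mp hx, one_mul, mul_one]
    by_contra hcon
    set α : MulAut (pCore r G) := MulAut.conjNormal h with hα
    have hα1 : orderOf α ≠ 1 := by
      intro h1
      rw [orderOf_eq_one_iff] at h1
      have h3 : h ∈ (MulAut.conjNormal : G →* MulAut (pCore r G)).ker := h1
      rw [Helper60Core.ker_conjNormal] at h3
      exact hcon h3
    obtain ⟨q, hq, hqd⟩ := Nat.exists_prime_and_dvd hα1
    have h4 : q ∣ Nat.card H := by
      refine hqd.trans ((orderOf_map_dvd _ h).trans ?_)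
      have := orderOf_dvd_natCard (⟨h, hh⟩ : H)
      rwa [← Subgroup.orderOf_coe] at this
    have h5 : p < q := (hH1 q hq h4).2
    have h6 := (Helper3AutRank.main h2 (Helper1Fitting.pCore_isPGroup r) (hF r hr) q hq
      (by omega) (hqd.trans (orderOf_dvd_natCard α))).2
    omega
  have hle : ∀ r : ℕ, r.Prime → p < r → pCore r G ≤ H := by
    intro r hr hrp
    haveI : Fact r.Prime := ⟨hr⟩
    exact Helper1Hall.le_of_isPGroup_of_normal_of_not_dvd_index r
      (Helper1Fitting.pCore_isPGroup r) (fun hd => hH2 r hr hd ⟨hr, hrp⟩)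
  set M : Subgroup G := ⨆ r : {r : Nat.Primes // (r : ℕ) ≤ p}, pCore (r.1 : ℕ) G with hM
  obtain ⟨hMn, hMc⟩ : M.Normal ∧ (Nat.card M).Coprime (Nat.card H) := by
    apply Helper1Fitting.coprime_card_iSup
    rintro ⟨r, hr⟩
    refine ⟨inferInstance, ?_⟩
    haveI : Fact (r : ℕ).Prime := ⟨r.2⟩
    obtain ⟨k, hk⟩ := (Helper1Fitting.pCore_isPGroup (G := G) (r : ℕ)).exists_card_eq
    rw [hk]
    apply Nat.Coprime.pow_left k
    rw [Nat.Prime.coprime_iff_not_dvd r.2]
    intro hd
    have := (hH1 r r.2 hd).2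
    omega
  have hFle : fittingSubgroup G ≤ H ⊔ M := by
    rw [Helper1Fitting.fitting_eq_iSup_pCore]
    refine iSup_le fun t => ?_
    by_cases h : (t : ℕ) ≤ p
    · exact le_trans (le_iSup (fun r : {r : Nat.Primes // (r : ℕ) ≤ p} => pCore (r.1 : ℕ) G)
        ⟨t, h⟩) le_sup_right
    · exact (hle t t.2 (by omega)).trans le_sup_left
  have hHM : ∀ h ∈ H, h ∈ Subgroup.centralizer (M : Set G) := by
    intro h hh
    apply Helper3DerFit.mem_centralizer_iSup
    rintro ⟨r, hr⟩
    exact hcen r r.2 hr h hh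
  have hpowH : ∀ h ∈ H, h ^ Nat.card H = 1 := by
    intro h hh
    have := pow_card_eq_one' (G := H) (x := ⟨h, hh⟩)
    exact congrArg Subtype.val this
  haveI hHn : H.Normal := by
    constructor
    intro h hh g
    have h1 : g * h * g⁻¹ = ⁅g, h⁆ * h := by rw [commutatorElement_def]; group
    have h2 : g * h * g⁻¹ ∈ H ⊔ M := by
      rw [h1]
      apply Subgroup.mul_mem _ _ (Subgroup.mem_sup_left hh)
      exact hFle (hDF (Subgroup.commutator_mem_commutator (Subgroup.mem_top g)
        (Subgroup.mem_top h)))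
    obtain ⟨h', hh', m, hm, hprod⟩ := Subgroup.mem_sup_of_normal_right.mp h2
    have hcomm : Commute h' m := (Subgroup.mem_centralizer_iff.mp (hHM h' hh') m hm).symm
    have h3 : (g * h * g⁻¹) ^ Nat.card H = 1 := by
      rw [conj_pow, hpowH h hh]; group
    rw [← hprod, hcomm.mul_pow, hpowH h' hh', one_mul] at h3
    have h4 : m ^ Nat.card M = 1 := by
      have := pow_card_eq_one' (G := M) (x := ⟨m, hm⟩)
      exact congrArg Subtype.val this
    have h5 : m = 1 := Helper3AutOdd.eq_one_of_pow_coprime h4 h3 hMc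
    rw [← hprod, h5, mul_one]
    exact hh'
  refine ⟨H, characteristic_of_normal_coprime H hHc, hH1, ?_⟩
  intro q hq hqπ hd
  exact hH2 q hq hd hqπ

theorem char_normal [Group.IsSolvable G]
    (hH : ∀ t : ℕ, t.Prime → ∀ k ∈ commutator G, (orderOf k).Coprime t →
      k ∈ Subgroup.centralizer (pCore t G : Set G))
    (hDF : commutator G ≤ fittingSubgroup G) (q : ℕ) [hq : Fact q.Prime] (S : Sylow q G)
    (T : Subgroup ↥(S : Subgroup G)) (hT : T.Characteristic)
    (hTS : T.map (S : Subgroup G).subtype ≤ ⁅(S : Subgroup G), (S : Subgroup G)⁆) :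
    (T.map (S : Subgroup G).subtype).Normal := by
  set T' := T.map (S : Subgroup G).subtype with hT'
  have hT'core : T' ≤ pCore q G := by
    intro x hx
    have h1 : x ∈ commutator G := Subgroup.commutator_mono le_top le_top (hTS hx)
    obtain ⟨t, _, rfl⟩ := hx
    obtain ⟨k, hk⟩ := S.isPGroup' t
    exact Helper3DerFit.mem_pCore_of_mem_fitting q (hDF h1) (k := k) (congrArg Subtype.val hk)
  have hnorm : Subgroup.normalizer ((S : Subgroup G) : Set G) ≤ Subgroup.normalizer (T' : Set G) := by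
    apply le_normalizer_of_conj_mem
    rintro g hg _ ⟨t, ht, rfl⟩
    set φ : MulAut (S : Subgroup G) :=
      Helper3AutOdd.conjHom (S : Subgroup G) (Subgroup.normalizer ((S : Subgroup G) : Set G))
        le_rfl ⟨g, hg⟩ with hφ
    have h1 : φ t ∈ T := by
      have h2 := hT.fixed φ
      have h3 : t ∈ T.comap φ.toMonoidHom := by rw [h2]; exact ht
      exact h3
    exact ⟨φ t, h1, rfl⟩
  have hSn : (S : Subgroup G) ≤ Subgroup.normalizer (T' : Set G) :=
    Subgroup.le_normalizer.trans hnorm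
  have hcomm : commutator G ≤ Subgroup.normalizer (T' : Set G) := by
    intro c hc
    obtain ⟨j, m, hm, hjm⟩ :=
      Nat.exists_eq_pow_mul_and_not_dvd (orderOf_pos c).ne' q hq.out.ne_one
    have hcop : (q ^ j).Coprime m :=
      Nat.Coprime.pow_left j ((Nat.Prime.coprime_iff_not_dvd hq.out).mpr hm)
    apply Helper3DerFit.mem_of_pow_mem_coprime hcop
    · have h1 : orderOf (c ^ (q ^ j)) = m := by
        rw [orderOf_pow_of_dvd (pow_ne_zero _ hq.out.ne_zero) (hjm ▸ Dvd.intro _ rfl), hjm]
        exact Nat.mul_div_cancel_left _ (pow_pos hq.out.pos _)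
      have h2 : c ^ (q ^ j) ∈ Subgroup.centralizer (pCore q G : Set G) := by
        apply hH q hq.out _ (Subgroup.pow_mem _ hc _)
        rw [h1, Nat.coprime_comm]
        exact (Nat.Prime.coprime_iff_not_dvd hq.out).mpr hm
      exact Subgroup.centralizer_le_normalizer _ (Subgroup.centralizer_le hT'core h2)
    · have h1 : (c ^ m) ^ q ^ j = 1 := by
        rw [← pow_mul, mul_comm, ← hjm, pow_orderOf_eq_one]
      have h2 : c ^ m ∈ pCore q G :=
        Helper3DerFit.mem_pCore_of_mem_fitting q (hDF (Subgroup.pow_mem _ hc _)) h1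
      exact hSn ((Helper1Fitting.pCore_isPGroup q).le_sylow_of_normal S h2)
  haveI hNn : ((S : Subgroup G) ⊔ commutator G).Normal :=
    Helper3PGroup.normal_of_commutator_le le_sup_right
  have htop := Sylow.normalizer_sup_eq_top' S (le_sup_left : (S : Subgroup G) ≤ (S : Subgroup G) ⊔ commutator G)
  rw [← Subgroup.normalizer_eq_top_iff, eq_top_iff, ← htop]
  exact sup_le hnorm (sup_le hSn hcomm)

/-- B-G Theorem 4.20. -/
theorem main [Group.IsSolvable G] (hodd : Odd (Nat.card G))
    (hr : RankLE 2 G ∨ RankLE 2 (fittingSubgroup G)) :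
    Group.IsNilpotent ↥(commutator G) ∧
      (∀ (q : ℕ) [Fact q.Prime] (S : Sylow q G) (T : Subgroup ↥(S : Subgroup G)),
        T.Characteristic →
        T.map (S : Subgroup G).subtype ≤ ⁅(S : Subgroup G), (S : Subgroup G)⁆ →
        (T.map (S : Subgroup G).subtype).Normal) ∧
      ∀ p : ℕ, ∃ N : Subgroup G, N.Characteristic ∧ IsPiHall {q | q.Prime ∧ p < q} N := by
  have hF : ∀ q : ℕ, q.Prime → PRankLE q 2 (pCore q G) := by
    intro q hq
    rcases hr with hr | hr
    · exact Helper3OddRank.rank_subgroup _ (hr q hq)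
    · have hle : pCore q G ≤ fittingSubgroup G := by
        rw [Helper1Fitting.fitting_eq_iSup_pCore]
        exact le_iSup (fun t : Nat.Primes => pCore (t : ℕ) G) ⟨q, hq⟩
      exact rank_of_injective (Subgroup.inclusion hle) (Subgroup.inclusion_injective hle) (hr q hq)
  have hH := hyp_of_rank hodd hF
  have hDF := Helper3DerFit.commutator_le_fitting hH
  refine ⟨?_, ?_, tower hodd hF hDF⟩
  · haveI := Helper1Fitting.fitting_isNilpotent (G := G)
    exact Group.nilpotent_of_mulEquiv (Subgroup.subgroupOfEquivOfLe hDF)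
  · intro q _ S T hT hTS
    exact char_normal hH hDF q S T hT hTS

end

end Cfsg.Agent.Lib.Helper3RankTower
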