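import Cfsg.Agent.Lib.Helper40Alperin

set_option autoImplicit false

namespace Cfsg.Agent.Lib.Helper40Fusion

open Subgroup Cfsg.Agent.Lib.Helper40Sylow Cfsg.Agent.Lib.Helper40Alperin

variable {G : Type*} [Group G]

theorem rj_inv_rj (x : G) (H : Subgroup G) : rj x⁻¹ (rj x H) = H := by
  rw [← rj_mul, mul_inv_cancel, rj_one]

theorem rj_rj_inv (x : G) (H : Subgroup G) : rj x (rj x⁻¹ H) = H := by
  rw [← rj_mul, inv_mul_cancel, rj_one]

theorem card_rj (x : G) (H : Subgroup G) : Nat.card (rj x H) = Nat.card H := card_cj _ _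

theorem normalizer_rj (x : G) (H : Subgroup G) :
    Subgroup.normalizer ((rj x H : Subgroup G) : Set G) = rj x (Subgroup.normalizer (H : Set G)) :=
  normalizer_cj _ _

theorem rj_inf (x : G) (H K : Subgroup G) : rj x (H ⊓ K) = rj x H ⊓ rj x K := cj_inf _ _ _

theorem conj_mem_rj {x a : G} {H : Subgroup G} (ha : a ∈ H) : x⁻¹ * a * x ∈ rj x H := by
  rw [mem_rj]
  have : x * (x⁻¹ * a * x) * x⁻¹ = a := by group
  rw [this]; exact ha

theorem mem_normalizer_iff_rj {x : G} {H : Subgroup G} :
    x ∈ Subgroup.normalizer (H : Set G) ↔ rj x H = H := by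
  constructor
  · exact rj_eq_self_of_mem_normalizer
  · intro h
    have : x⁻¹ ∈ Subgroup.normalizer (H : Set G) := mem_normalizer_iff_cj.mpr h
    simpa using Subgroup.inv_mem _ this

/-- If `c` and `g` induce the same right conjugation on `D`, the conjugates agree. -/
theorem rj_congr {c g : G} {D : Subgroup G} (h : ∀ a ∈ D, c⁻¹ * a * c = g⁻¹ * a * g) : rj c D = rj g D := by
  ext y
  rw [mem_rj, mem_rj]
  constructor
  · intro hy
    have h1 := h _ hy
    have e : c⁻¹ * (c * y * c⁻¹) * c = y := by group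
    rw [e] at h1
    have : g * y * g⁻¹ = c * y * c⁻¹ := by
      conv_lhs => rw [h1]
      group
    rw [this]; exact hy
  · intro hy
    have h1 := h _ hy
    have e : g⁻¹ * (g * y * g⁻¹) * g = y := by group
    rw [e] at h1
    have : c * y * c⁻¹ = g * y * g⁻¹ := by
      conv_lhs => rw [← h1]
      group
    rw [this]; exact hy

/-- A predicate on pairs (subgroup, element), thought of as "right conjugation by `g` on `D` is allowed", which is
closed under restriction, composition and inversion. -/
structure FClosed (Φ : Subgroup G → G → Prop) : Prop where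
  one : ∀ D, Φ D 1
  mono : ∀ {D D' : Subgroup G} {g : G}, Φ D g → D' ≤ D → Φ D' g
  trans : ∀ {D : Subgroup G} {g h : G}, Φ D g → Φ (rj g D) h → Φ D (g * h)
  symm : ∀ {D : Subgroup G} {g : G}, Φ D g → Φ (rj g D) g⁻¹

/-- The closure of a step relation under composition. -/
inductive Gen (St : Subgroup G → G → Prop) : Subgroup G → G → Prop
  | nil (D : Subgroup G) : Gen St D 1
  | cons (D : Subgroup G) (x y : G) : St D x → Gen St (rj x D) y → Gen St D (x * y)

theorem Gen.single {St : Subgroup G → G → Prop} {D : Subgroup G} {x : G} (h : St D x) : Gen St D x := by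
  have := Gen.cons D x 1 h (Gen.nil _)
  rwa [mul_one] at this

theorem Gen.trans {St : Subgroup G → G → Prop} {D : Subgroup G} {g h : G} (h1 : Gen St D g)
    (h2 : Gen St (rj g D) h) : Gen St D (g * h) := by
  induction h1 with
  | nil D => rw [one_mul]; rwa [rj_one] at h2
  | cons D x y hst _ ih =>
    rw [mul_assoc]
    refine Gen.cons D x (y * h) hst (ih ?_)
    rwa [rj_mul] at h2

theorem Gen.mono {St : Subgroup G → G → Prop}
    (hmono : ∀ (D D' : Subgroup G) (x : G), St D x → D' ≤ D → St D' x)
    {D D' : Subgroup G} {g : G} (h : Gen St D g) (hD : D' ≤ D) : Gen St D' g := by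
  induction h generalizing D' with
  | nil D => exact Gen.nil D'
  | cons D x y hst _ ih => exact Gen.cons D' x y (hmono _ _ _ hst hD) (ih (rj_mono hD))

theorem Gen.symm {St : Subgroup G → G → Prop}
    (hsymm : ∀ (D : Subgroup G) (x : G), St D x → St (rj x D) x⁻¹)
    {D : Subgroup G} {g : G} (h : Gen St D g) : Gen St (rj g D) g⁻¹ := by
  induction h with
  | nil D => rw [inv_one]; exact Gen.nil _
  | cons D x y hst _ ih =>
    rw [mul_inv_rev, rj_mul]
    refine ih.trans ?_
    rw [rj_inv_rj]
    exact Gen.single (hsymm _ _ hst)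

theorem Gen.fclosed {St : Subgroup G → G → Prop}
    (hmono : ∀ (D D' : Subgroup G) (x : G), St D x → D' ≤ D → St D' x)
    (hsymm : ∀ (D : Subgroup G) (x : G), St D x → St (rj x D) x⁻¹) : FClosed (Gen St) :=
  ⟨Gen.nil, fun h hD => Gen.mono hmono h hD, fun h1 h2 => h1.trans h2, fun h => Gen.symm hsymm h⟩

/-- A chain all of whose steps satisfy a closed predicate satisfies it. -/
theorem Gen.to_fclosed {St Φ : Subgroup G → G → Prop} (hΦ : FClosed Φ)
    (hst : ∀ (D : Subgroup G) (x : G), St D x → Φ D x) {D : Subgroup G} {g : G} (h : Gen St D g) : Φ D g := by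
  induction h with
  | nil D => exact hΦ.one D
  | cons D x y h1 _ ih => exact hΦ.trans (hst D x h1) ih

/-- Unfolding a chain into an indexed family. -/
theorem Gen.exists_fin {St : Subgroup G → G → Prop} {D : Subgroup G} {g : G} (h : Gen St D g) :
    ∃ (n : ℕ) (x : Fin n → G), (List.ofFn x).prod = g ∧
      ∀ i : Fin n, St (rj ((List.ofFn x).take i.val).prod D) (x i) := by
  induction h with
  | nil D => exact ⟨0, Fin.elim0, by simp, fun i => i.elim0⟩
  | cons D x₀ y hst _ ih =>
    obtain ⟨n, x, hprod, hC⟩ := ih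
    refine ⟨n + 1, Fin.cons x₀ x, ?_, ?_⟩
    · simp [List.ofFn_succ, hprod]
    · intro i
      refine Fin.cases ?_ (fun j => ?_) i
      · simpa [rj_one] using hst
      · have := hC j
        simp only [List.ofFn_succ, Fin.cons_zero, Fin.cons_succ, Fin.val_succ, List.take_succ_cons,
          List.prod_cons]
        rw [rj_mul]
        exact this

variable {p : ℕ}

/-- `U` is fully normalized in `S`: `N_S(U)` is a Sylow `p`-subgroup of `N_G(U)`. -/
abbrev FullyNorm (p : ℕ) (S U : Subgroup G) : Prop :=
  IsSylowIn p (S ⊓ Subgroup.normalizer (U : Set G)) (Subgroup.normalizer (U : Set G))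

theorem fullyNorm_iff {S : Sylow p G} {U : Subgroup G} :
    FullyNorm p (S : Subgroup G) U ↔
      ¬ p ∣ ((S : Subgroup G) ⊓ Subgroup.normalizer (U : Set G)).relIndex (Subgroup.normalizer (U : Set G)) :=
  ⟨fun h => h.2.2, fun h => ⟨inf_le_right, S.2.to_le inf_le_left, h⟩⟩

variable [Finite G] [Fact p.Prime]

/-- If `U` is fully normalized and conjugate to `D`, the conjugating element can be chosen to carry `N_S(D)` into
`N_S(U)`. -/
theorem exists_extremal_conj {S : Sylow p G} {D U : Subgroup G} (hU : FullyNorm p (S : Subgroup G) U) {k : G}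
    (hk : rj k D = U) :
    ∃ k₁ : G, rj k₁ D = U ∧ rj k₁ ((S : Subgroup G) ⊓ Subgroup.normalizer (D : Set G)) ≤
      (S : Subgroup G) ⊓ Subgroup.normalizer (U : Set G) := by
  have h1 : IsPGroup p (rj k ((S : Subgroup G) ⊓ Subgroup.normalizer (D : Set G))) :=
    isPGroup_cj (S.2.to_le inf_le_left) _
  have h2 : rj k ((S : Subgroup G) ⊓ Subgroup.normalizer (D : Set G)) ≤ Subgroup.normalizer (U : Set G) := by
    rw [← hk, normalizer_rj]
    exact rj_mono inf_le_right
  obtain ⟨n, hn, hle⟩ := hU.exists_conj_le h1 h2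
  refine ⟨k * n⁻¹, ?_, ?_⟩
  · rw [rj_mul, hk]
    exact rj_eq_self_of_mem_normalizer (Subgroup.inv_mem _ hn)
  · rw [rj_mul]
    have : rj n⁻¹ (rj k ((S : Subgroup G) ⊓ Subgroup.normalizer (D : Set G))) =
        cj n (rj k ((S : Subgroup G) ⊓ Subgroup.normalizer (D : Set G))) := by
      rw [rj, inv_inv]
    rw [this]; exact hle

/-- Every subgroup of `S` has a fully normalized conjugate in `S`, reached by an element carrying `N_S(T)` into `S`. -/
theorem exists_fullyNorm_conj (S : Sylow p G) (T : Subgroup G) (hT : T ≤ (S : Subgroup G)) :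
    ∃ k : G, rj k T ≤ (S : Subgroup G) ∧ FullyNorm p (S : Subgroup G) (rj k T) ∧
      rj k ((S : Subgroup G) ⊓ Subgroup.normalizer (T : Set G)) ≤
        (S : Subgroup G) ⊓ Subgroup.normalizer ((rj k T : Subgroup G) : Set G) := by
  obtain ⟨R, hR, hle⟩ := exists_sylow_inf (p := p) (N := Subgroup.normalizer (T : Set G))
    (U := (S : Subgroup G) ⊓ Subgroup.normalizer (T : Set G)) (S.2.to_le inf_le_left) inf_le_right
  obtain ⟨g, hg⟩ := MulAction.exists_smul_eq G R S
  have hg' : cj g (R : Subgroup G) = S := by rw [← sylow_smul_eq_cj, hg]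
  have hTR : T ≤ (R : Subgroup G) :=
    ((le_inf hT Subgroup.le_normalizer).trans hle).trans inf_le_left
  refine ⟨g⁻¹, ?_, ?_, ?_⟩
  · rw [rj, inv_inv, ← hg']; exact cj_mono hTR
  · have := hR.cj g
    rw [cj_inf, hg', ← normalizer_cj] at this
    rw [rj, inv_inv]; exact this
  · rw [rj, inv_inv, rj, inv_inv, normalizer_cj]
    conv_rhs => rw [← hg', ← cj_inf]
    exact cj_mono hle

/-- **Induction principle for fusion.** To prove a closed predicate for all `G`-fusion in `S` it suffices to treat, for one
fully normalized representative `U` of each conjugacy class, the elements of `N_G(U)` acting on `U`, assuming the predicate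
for all larger subgroups. -/
theorem fusion_induction (S : Sylow p G) {Φ : Subgroup G → G → Prop} (hΦ : FClosed Φ)
    (H : ∀ T : Subgroup G, T ≤ (S : Subgroup G) → ∃ k : G, rj k T ≤ (S : Subgroup G) ∧
      FullyNorm p (S : Subgroup G) (rj k T) ∧
      ((∀ E : Subgroup G, E ≤ (S : Subgroup G) → Nat.card T < Nat.card E →
          ∀ g : G, rj g E ≤ (S : Subgroup G) → Φ E g) →
        ∀ m ∈ Subgroup.normalizer ((rj k T : Subgroup G) : Set G), Φ (rj k T) m)) :
    ∀ D : Subgroup G, D ≤ (S : Subgroup G) → ∀ g : G, rj g D ≤ (S : Subgroup G) → Φ D g := by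
  have key : ∀ n : ℕ, ∀ D : Subgroup G, D ≤ (S : Subgroup G) → Nat.card (S : Subgroup G) - Nat.card D = n →
      ∀ g : G, rj g D ≤ (S : Subgroup G) → Φ D g := by
    intro n
    induction n using Nat.strong_induction_on with
    | _ n ih =>
      intro D hD hn g hg
      have IH : ∀ E : Subgroup G, E ≤ (S : Subgroup G) → Nat.card D < Nat.card E →
          ∀ g : G, rj g E ≤ (S : Subgroup G) → Φ E g := by
        intro E hE hlt g' hg'
        have hle : Nat.card E ≤ Nat.card (S : Subgroup G) := Subgroup.card_le_of_le hE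
        exact ih _ (by omega) E hE rfl g' hg'
      obtain ⟨k, hkS, hU, hm⟩ := H D hD
      have hm' := hm IH
      by_cases hDS : D = (S : Subgroup G)
      · have h1 : rj k D = D := by
          rw [hDS]
          apply Subgroup.eq_of_le_of_card_ge (hDS ▸ hkS)
          rw [card_rj]
        have h2 : rj g D = D := by
          rw [hDS]
          apply Subgroup.eq_of_le_of_card_ge (hDS ▸ hg)
          rw [card_rj]
        rw [h1] at hm'
        exact hm' g (mem_normalizer_iff_rj.mpr h2)
      · have hlt : D < (S : Subgroup G) := lt_of_le_of_ne hD hDS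
        have hlt' : rj g D < (S : Subgroup G) := by
          refine lt_of_le_of_ne hg ?_
          intro he
          have h3 : Nat.card D = Nat.card (S : Subgroup G) := by rw [← he, card_rj]
          exact hDS (Subgroup.eq_of_le_of_card_ge hD h3.ge)
        obtain ⟨k₁, hk₁, hk₁'⟩ := exists_extremal_conj hU (k := k) rfl
        obtain ⟨k₂, hk₂, hk₂'⟩ := exists_extremal_conj hU (D := rj g D) (k := g⁻¹ * k) (by
          rw [rj_mul, rj_inv_rj])
        have hΦ1 : Φ D k₁ :=
          hΦ.mono (IH _ inf_le_left (card_lt_card_inf_normalizer S.2 hlt) k₁ (hk₁'.trans inf_le_left))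
            (le_inf hD Subgroup.le_normalizer)
        have hΦ2 : Φ (rj g D) k₂ :=
          hΦ.mono (IH _ inf_le_left (by
            have := card_lt_card_inf_normalizer S.2 hlt'
            rwa [card_rj] at this) k₂ (hk₂'.trans inf_le_left))
            (le_inf hg Subgroup.le_normalizer)
        have hΦ3 : Φ (rj k D) k₂⁻¹ := by
          have := hΦ.symm hΦ2
          rwa [hk₂] at this
        have hmem : k₁⁻¹ * g * k₂ ∈ Subgroup.normalizer ((rj k D : Subgroup G) : Set G) := by
          rw [mem_normalizer_iff_rj, rj_mul, rj_mul]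
          conv_lhs => rw [← hk₁]
          rw [rj_inv_rj, hk₂]
        have hΦ4 := hm' _ hmem
        have e : g = k₁ * ((k₁⁻¹ * g * k₂) * k₂⁻¹) := by group
        rw [e]
        refine hΦ.trans hΦ1 ?_
        rw [hk₁]
        refine hΦ.trans hΦ4 ?_
        rw [mem_normalizer_iff_rj.mp hmem]
        exact hΦ3
  intro D hD g hg
  exact key _ D hD rfl g hg

end Cfsg.Agent.Lib.Helper40Fusion
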