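import Mathlib
import Cfsg.Prelude.Def_Transfer
import Cfsg.Agent.Lib.Helper39Sylow
import Cfsg.Agent.Lib.Helper40NPC

set_option autoImplicit false
open Cfsg

namespace Cfsg.Agent.Lib.Helper40KNpc

open Cfsg.Agent.Lib.Helper39Sylow Cfsg.Agent.Lib.Helper40NPC

/-- if `K` is a `p`-subgroup containing its centralizer in a Sylow subgroup `S` of `N(K)` and all elements of
`N(K)` of order prime to `p` centralize `K`, then `N(K)` has a normal `p`-complement -/
theorem npc_of_pprime_centralize {G : Type*} [Group G] [Finite G] {p : ℕ} [Fact p.Prime] (S K : Subgroup G)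
    (hS : IsSyl p S (Subgroup.normalizer (K : Set G)))
    (hC : S ⊓ Subgroup.centralizer (K : Set G) ≤ K)
    (h : ∀ g ∈ Subgroup.normalizer (K : Set G), (orderOf g).Coprime p → g ∈ Subgroup.centralizer (K : Set G)) :
    HasNormalPComplement p ↥(Subgroup.normalizer (K : Set G)) := by
  set N := Subgroup.normalizer (K : Set G) with hN
  set C := Subgroup.centralizer (K : Set G) with hCdef
  have hCN : C ≤ N := Subgroup.centralizer_le_normalizer _
  have step1 : ∀ Q : Subgroup G, Q ≤ C → IsPGroup p Q → Q ≤ K := by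
    intro Q hQC hQ
    obtain ⟨c, hcN, hc⟩ := hS.exists_conj_le (hQC.trans hCN) hQ
    have hcK : cj c K = K := mem_normalizer_iff_cj.1 hcN
    have h1 : cj c Q ≤ C := by
      have := cj_mono (g := c) hQC
      rwa [hCdef, ← centralizer_cj, hcK] at this
    have h2 : cj c Q ≤ K := (le_inf hc h1).trans hC
    rw [cj_le_iff] at h2
    have hcK' : cj c⁻¹ K = K := mem_normalizer_iff_cj.1 (N.inv_mem hcN)
    rwa [hcK'] at h2
  obtain ⟨P⟩ : Nonempty (Sylow p ↥C) := inferInstance
  have hPK : ∀ y : ↥C, y ∈ P → (y : G) ∈ K := by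
    intro y hy
    exact step1 ((P : Subgroup ↥C).map C.subtype) (Subgroup.map_subtype_le _) (P.2.map _) ⟨y, hy, rfl⟩
  have hP : Subgroup.normalizer ((P : Subgroup ↥C) : Set ↥C) ≤ Subgroup.centralizer ((P : Subgroup ↥C) : Set ↥C) := by
    intro x _ y hy
    apply Subtype.ext
    exact x.2 y (hPK y hy)
  have hnpc : HasNormalPComplement p ↥C :=
    ⟨P, (MonoidHom.transferSylow P hP).ker, inferInstance, MonoidHom.ker_transferSylow_isComplement' P hP⟩
  obtain ⟨K', -, -, -, hK'⟩ := exists_of_hasNormalPComplement hnpc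
  apply hasNormalPComplement_of_pPrime_elements ((K'.map C.subtype).subgroupOf N)
  intro x
  rw [Subgroup.mem_subgroupOf]
  constructor
  · rintro ⟨c, hc, hcx⟩
    have h1 := (hK' c).1 hc
    rw [← Subgroup.orderOf_coe] at h1 ⊢
    rw [← hcx]
    exact h1
  · intro hx
    rw [← Subgroup.orderOf_coe] at hx
    have hxC : (x : G) ∈ C := h x x.2 hx
    refine ⟨⟨x, hxC⟩, (hK' _).2 ?_, rfl⟩
    rw [← Subgroup.orderOf_coe]
    exact hx

end Cfsg.Agent.Lib.Helper40KNpc
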