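import Mathlib
import Cfsg.Agent.Lib.Helper44SLDefs
import Cfsg.Agent.Lib.Helper98MinDefs

set_option autoImplicit false

/-! PROJECT 44, piece `slidx`: index and double coset decomposition of the point stabiliser. -/

namespace Cfsg.Agent.Lib.Helper40SLslidx

open Matrix Cfsg Cfsg.Agent.Lib.Helper44Wt Cfsg.Agent.Lib.Helper44SLDefs
open scoped LinearAlgebra.Projectivization

variable {F : Type*} [Field F]

/-- the point `<e₀>`. -/
noncomputable def p0 (k : ℕ) (F : Type*) [Field F] : ℙ F (Fin 2 ⊕ Fin k → F) :=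
  Projectivization.mk F e0 e0_ne_zero

theorem smul_e0 {k : ℕ} (g : GG k F) :
    g • (e0 : Fin 2 ⊕ Fin k → F) =
      fun i => (g : Matrix (Fin 2 ⊕ Fin k) (Fin 2 ⊕ Fin k) F) i (Sum.inl 0) := by
  rw [Matrix.SpecialLinearGroup.smul_def]
  show (g : Matrix (Fin 2 ⊕ Fin k) (Fin 2 ⊕ Fin k) F) *ᵥ e0 = _
  ext i
  simp [e0]

theorem mem_Ppt_iff {k : ℕ} (g : GG k F) : g ∈ Ppt k F ↔ g • p0 k F = p0 k F := by
  unfold p0
  rw [Projectivization.smul_mk, Projectivization.mk_eq_mk_iff', mem_Ppt, smul_e0]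
  constructor
  · intro h
    refine ⟨(g : Matrix (Fin 2 ⊕ Fin k) (Fin 2 ⊕ Fin k) F) (Sum.inl 0) (Sum.inl 0), ?_⟩
    ext i
    by_cases hi : i = Sum.inl 0
    · subst hi; simp [e0]
    · rw [h i hi]; simp [e0, hi]
  · rintro ⟨a, ha⟩ i hi
    have := congrFun ha i
    simp only [e0, Pi.smul_apply, Pi.single_apply, hi, if_false, smul_eq_mul, mul_zero] at this
    exact this.symm

theorem Ppt_eq_stabilizer (k : ℕ) : Ppt k F = MulAction.stabilizer (GG k F) (p0 k F) := by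
  ext g
  rw [mem_Ppt_iff, MulAction.mem_stabilizer_iff]

theorem sl_index [Fintype F] (k : ℕ) :
    (Ppt k F).index * (Fintype.card F - 1) + 1 = Fintype.card F ^ (k + 2) := by
  have : MulAction.IsPretransitive (GG k F) (ℙ F (Fin 2 ⊕ Fin k → F)) :=
    MulAction.IsPreprimitive.toIsPretransitive
  rw [Ppt_eq_stabilizer, MulAction.index_stabilizer_of_transitive, ← Nat.card_eq_fintype_card,
    ← Projectivization.card' F (Fin 2 ⊕ Fin k → F)]
  rw [Nat.card_eq_fintype_card, Nat.card_eq_fintype_card, Fintype.card_fun, Fintype.card_sum,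
    Fintype.card_fin, Fintype.card_fin, add_comm]

theorem w_notMem (m : ℕ) : (jHom m w2 : GG (m + 1) F) ∉ Ppt (m + 1) F := by
  intro h
  have := h (Sum.inl 1) (by simp)
  rw [jHom_apply, lev, pel_coe] at this
  simp [w2_coe] at this

theorem sl_dc (m : ℕ) (g : GG (m + 1) F) (hg : g ∉ Ppt (m + 1) F) :
    ∃ h ∈ Ppt (m + 1) F, ∃ h' ∈ Ppt (m + 1) F, g = h * jHom m w2 * h' := by
  have h2 : MulAction.IsMultiplyPretransitive (GG (m + 1) F) (ℙ F (Fin 2 ⊕ Fin (m + 1) → F)) 2 :=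
    inferInstance
  rw [MulAction.is_two_pretransitive_iff] at h2
  have hw := w_notMem (F := F) m
  rw [mem_Ppt_iff] at hg hw
  obtain ⟨h, h1, h3⟩ := h2 (Ne.symm hw) (Ne.symm hg)
  refine ⟨h, (mem_Ppt_iff h).2 h1, (h * jHom m w2)⁻¹ * g, ?_, by group⟩
  rw [mem_Ppt_iff, mul_smul, ← h3, ← mul_smul, ← mul_smul, mul_assoc, inv_mul_cancel, one_smul]

end Cfsg.Agent.Lib.Helper40SLslidx
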