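import Mathlib
import Cfsg.Agent.Lib.Helper44SLDefs
import Cfsg.Agent.Lib.Helper98MinDefs

set_option autoImplicit false

/-! PROJECT 44, piece `slnorm`: the point stabiliser normalises `U_p`; `upHom` is injective. -/

namespace Cfsg.Agent.Lib.Helper40SLslnorm

open Matrix Cfsg Cfsg.Agent.Lib.Helper44Wt Cfsg.Agent.Lib.Helper44SLDefs
  Cfsg.Agent.Lib.Helper98MinDefs

variable {F : Type*} [Field F]

/-- the covector of `upHom (c, y)`. -/
def cov {k : ℕ} (c : F) (y : Fin k → F) : Fin 2 ⊕ Fin k → F := Sum.elim ![0, c] y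

theorem cov_dot_e0 {k : ℕ} (c : F) (y : Fin k → F) : cov c y ⬝ᵥ (e0 : Fin 2 ⊕ Fin k → F) = 0 := by
  simp [cov, e0]

theorem dot_e0 {k : ℕ} (φ : Fin 2 ⊕ Fin k → F) : φ ⬝ᵥ (e0 : Fin 2 ⊕ Fin k → F) = φ (Sum.inl 0) := by
  simp [e0]

theorem up_eq_T {k : ℕ} (c : F) (y : Fin k → F) :
    upHom (Multiplicative.ofAdd (c, y)) = T (e0 : Fin 2 ⊕ Fin k → F) (cov c y) := by
  apply sl_ext
  rw [T_coe (cov_dot_e0 c y), upHom_apply, uK, pel_coe]
  ext i j
  rcases i with i | i <;> rcases j with j | j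
  · fin_cases i <;> fin_cases j <;> simp [tt, cov, e0, vecMulVec_apply, Matrix.one_apply]
  · fin_cases i <;> simp [rows, cov, e0, vecMulVec_apply, Matrix.one_apply]
  · simp [cov, e0, vecMulVec_apply, Matrix.one_apply]
  · simp [cov, e0, vecMulVec_apply, Matrix.one_apply]

theorem T_eq_up {k : ℕ} (φ : Fin 2 ⊕ Fin k → F) :
    ∃ a : F × (Fin k → F), T (e0 : Fin 2 ⊕ Fin k → F) φ = upHom (Multiplicative.ofAdd a) := by
  by_cases h : φ ⬝ᵥ (e0 : Fin 2 ⊕ Fin k → F) = 0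
  · refine ⟨(φ (Sum.inl 1), fun i => φ (Sum.inr i)), ?_⟩
    rw [up_eq_T]
    congr 1
    rw [dot_e0] at h
    ext i
    rcases i with i | i
    · fin_cases i <;> simp [cov, h]
    · simp [cov]
  · refine ⟨0, ?_⟩
    rw [T_of_ne h]
    exact (map_one upHom).symm

theorem up_injective (k : ℕ) :
    Function.Injective (upHom : Multiplicative (F × (Fin k → F)) →* GG k F) := by
  intro a b hab
  obtain ⟨⟨c, y⟩, rfl⟩ := Multiplicative.ofAdd.surjective a
  obtain ⟨⟨c', y'⟩, rfl⟩ := Multiplicative.ofAdd.surjective b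
  rw [upHom_apply, upHom_apply] at hab
  have h := congrArg (fun g : GG k F => (g : Matrix (Fin 2 ⊕ Fin k) (Fin 2 ⊕ Fin k) F)) hab
  simp only [uK, pel_coe] at h
  have h1 := congrFun (congrFun h (Sum.inl 0)) (Sum.inl 1)
  have h2 : ∀ i, y i = y' i := fun i => by
    have := congrFun (congrFun h (Sum.inl 0)) (Sum.inr i)
    simpa [rows] using this
  simp [tt] at h1
  congr 1
  rw [h1, funext h2]

theorem mulVec_e0 {k : ℕ} (g : GG k F) (hg : g ∈ Ppt k F) :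
    (g : Matrix (Fin 2 ⊕ Fin k) (Fin 2 ⊕ Fin k) F) *ᵥ e0 =
      ((g : Matrix (Fin 2 ⊕ Fin k) (Fin 2 ⊕ Fin k) F) (Sum.inl 0) (Sum.inl 0)) • e0 := by
  ext l
  simp only [e0, Matrix.mulVec_single, Pi.smul_apply, smul_eq_mul, MulOpposite.op_one, one_smul,
    Matrix.col_apply]
  by_cases hl : l = Sum.inl 0
  · subst hl; simp
  · rw [hg l hl]; simp [hl]

theorem sl_norm (k : ℕ) (g : GG k F) (hg : g ∈ Ppt k F) (a : F × (Fin k → F)) :
    ∃ a' : F × (Fin k → F),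
      g * upHom (Multiplicative.ofAdd a) * g⁻¹ = upHom (Multiplicative.ofAdd a') := by
  obtain ⟨c, y⟩ := a
  rw [up_eq_T, T_conj, mulVec_e0 g hg, T_smul]
  exact T_eq_up _

end Cfsg.Agent.Lib.Helper40SLslnorm
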