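import Cfsg.Agent.Lib.Helper43SpDefs2

set_option autoImplicit false

/-! Project 243, wave 3, piece `dsd`. -/

namespace Cfsg.Agent.Lib.Helper40SpDsd

open Matrix Cfsg.Agent.Lib.Helper43BP Cfsg.Agent.Lib.Helper43St Cfsg.Agent.Lib.Helper43Sp

private theorem comm_all {A P : Type*} [Group A] [Group P] (S : Set A)
    (hS : Subgroup.closure S = ⊤) (φ : A →* P) (z : P) (h : ∀ x ∈ S, Commute z (φ x)) (g : A) :
    Commute z (φ g) := by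
  have hg : g ∈ Subgroup.closure S := by
    rw [hS]
    exact Subgroup.mem_top g
  induction hg using Subgroup.closure_induction with
  | mem x hx => exact h x hx
  | one => rw [map_one]; exact Commute.one_right z
  | mul x y _ _ hx hy => rw [map_mul]; exact hx.mul_right hy
  | inv x _ hx => rw [map_inv]; exact hx.inv_right

variable {m : ℕ} {F : Type*} [Field F] {P : Type*} [Group P] (G : GC m F P)

/-- the conjugated embedding -/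
private def cj (σ : Equiv.Perm (Fin (m + 3))) : Sp 2 F →* P :=
  (MulAut.conj (G.θ σ)).toMonoidHom.comp G.ι

private theorem cj_apply (σ : Equiv.Perm (Fin (m + 3))) (g : Sp 2 F) :
    cj G σ g = G.θ σ * G.ι g * (G.θ σ)⁻¹ := rfl

private theorem n02 : (0 : Fin (m + 3)) ≠ 2 := by
  intro h
  have := congrArg Fin.val h
  rw [Fin.val_zero, Fin.val_two] at this
  omega

private theorem n12 : (1 : Fin (m + 3)) ≠ 2 := by
  intro h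
  have := congrArg Fin.val h
  rw [Fin.val_one, Fin.val_two] at this
  omega

/-- conjugating by two permutations which agree at `0`, `1` -/
private theorem cj_congr
    (L1 : ∀ (σ : Equiv.Perm (Fin (m + 3))), σ 0 = 0 → σ 1 = 1 → ∀ g : Sp 2 F,
      Commute (G.θ σ) (G.ι g))
    (σ ρ : Equiv.Perm (Fin (m + 3))) (h0 : ρ 0 = σ 0) (h1 : ρ 1 = σ 1) (g : Sp 2 F) :
    G.θ ρ * G.ι g * (G.θ ρ)⁻¹ = G.θ σ * G.ι g * (G.θ σ)⁻¹ := by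
  have e : ρ = σ * (σ⁻¹ * ρ) := by group
  have hc := L1 (σ⁻¹ * ρ)
    (by rw [Equiv.Perm.mul_apply, h0, ← Equiv.Perm.mul_apply, inv_mul_cancel, Equiv.Perm.one_apply])
    (by rw [Equiv.Perm.mul_apply, h1, ← Equiv.Perm.mul_apply, inv_mul_cancel, Equiv.Perm.one_apply])
    g
  rw [e, map_mul, _root_.mul_inv_rev]
  have : G.θ σ * G.θ (σ⁻¹ * ρ) * G.ι g * ((G.θ (σ⁻¹ * ρ))⁻¹ * (G.θ σ)⁻¹) =
      G.θ σ * (G.θ (σ⁻¹ * ρ) * G.ι g * (G.θ (σ⁻¹ * ρ))⁻¹) * (G.θ σ)⁻¹ := by group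
  rw [this, hc.eq, mul_inv_cancel_right]

/-- a long root element at `0` commutes with the conjugated `Sp_4` -/
private theorem claimA
    (L1 : ∀ (σ : Equiv.Perm (Fin (m + 3))), σ 0 = 0 → σ 1 = 1 → ∀ g : Sp 2 F,
      Commute (G.θ σ) (G.ι g))
    (long_dis : ∀ (a : I 2), ab a = 0 → ∀ (t : F) (g : Sp 2 F),
      Commute (G.θ (Equiv.swap 0 2) * G.ι (X a (ng a) t) * (G.θ (Equiv.swap 0 2))⁻¹) (G.ι g))
    (σ : Equiv.Perm (Fin (m + 3))) (h1 : σ 0 ≠ 0) (h3 : σ 1 ≠ 0)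
    (a : I 2) (ha : ab a = 0) (t : F) (g' : Sp 2 F) :
    Commute (G.ι (X a (ng a) t)) (G.θ σ * G.ι g' * (G.θ σ)⁻¹) := by
  obtain ⟨j, hj⟩ : ∃ j, j = σ⁻¹ 0 := ⟨_, rfl⟩
  have hσj : σ j = 0 := by
    rw [hj, ← Equiv.Perm.mul_apply, mul_inv_cancel, Equiv.Perm.one_apply]
  have hj0 : (0 : Fin (m + 3)) ≠ j := by
    intro e
    rw [← e] at hσj
    exact h1 hσj
  have hj1 : (1 : Fin (m + 3)) ≠ j := by
    intro e
    rw [← e] at hσj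
    exact h3 hσj
  obtain ⟨ρ, hρ⟩ : ∃ ρ, ρ = σ * Equiv.swap 2 j := ⟨_, rfl⟩
  have hρ0 : ρ 0 = σ 0 := by
    rw [hρ, Equiv.Perm.mul_apply, Equiv.swap_apply_of_ne_of_ne n02 hj0]
  have hρ1 : ρ 1 = σ 1 := by
    rw [hρ, Equiv.Perm.mul_apply, Equiv.swap_apply_of_ne_of_ne n12 hj1]
  have hρ2 : ρ 2 = 0 := by
    rw [hρ, Equiv.Perm.mul_apply, Equiv.swap_apply_left, hσj]
  have hl := long_dis a ha t g'
  have hl2 := (Commute.conj_iff (G.θ ρ)).2 hl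
  rw [cj_congr G L1 σ ρ hρ0 hρ1 g'] at hl2
  have hk := G.k2 (ρ * Equiv.swap 0 2)
    (by rw [Equiv.Perm.mul_apply, Equiv.swap_apply_left, hρ2]) a ha t
  have e : G.θ ρ * (G.θ (Equiv.swap 0 2) * G.ι (X a (ng a) t) * (G.θ (Equiv.swap 0 2))⁻¹) * (G.θ ρ)⁻¹ =
      G.ι (X a (ng a) t) := by
    have : G.θ ρ * (G.θ (Equiv.swap 0 2) * G.ι (X a (ng a) t) * (G.θ (Equiv.swap 0 2))⁻¹) * (G.θ ρ)⁻¹ =
        G.θ (ρ * Equiv.swap 0 2) * G.ι (X a (ng a) t) * (G.θ (ρ * Equiv.swap 0 2))⁻¹ := by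
      rw [map_mul]
      group
    rw [this, hk.eq, mul_inv_cancel_right]
  rw [e] at hl2
  exact hl2

/-- `PM (0 1)` commutes with the conjugated `Sp_4` -/
private theorem claimS
    (L1 : ∀ (σ : Equiv.Perm (Fin (m + 3))), σ 0 = 0 → σ 1 = 1 → ∀ g : Sp 2 F,
      Commute (G.θ σ) (G.ι g))
    (σ : Equiv.Perm (Fin (m + 3))) (h1 : σ 0 ≠ 0) (h2 : σ 0 ≠ 1) (h3 : σ 1 ≠ 0) (h4 : σ 1 ≠ 1)
    (g' : Sp 2 F) :
    Commute (G.ι (PM F (Equiv.swap 0 1))) (G.θ σ * G.ι g' * (G.θ σ)⁻¹) := by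
  rw [← G.k1]
  have e := cj_congr G L1 σ (Equiv.swap 0 1 * σ)
    (by rw [Equiv.Perm.mul_apply, Equiv.swap_apply_of_ne_of_ne h1 h2])
    (by rw [Equiv.Perm.mul_apply, Equiv.swap_apply_of_ne_of_ne h3 h4]) g'
  rw [map_mul] at e
  have e' : G.θ (Equiv.swap 0 1) * (G.θ σ * G.ι g' * (G.θ σ)⁻¹) * (G.θ (Equiv.swap 0 1))⁻¹ =
      G.θ σ * G.ι g' * (G.θ σ)⁻¹ := by
    have e2 : G.θ (Equiv.swap 0 1) * (G.θ σ * G.ι g' * (G.θ σ)⁻¹) * (G.θ (Equiv.swap 0 1))⁻¹ =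
        G.θ (Equiv.swap 0 1) * G.θ σ * G.ι g' * (G.θ (Equiv.swap 0 1) * G.θ σ)⁻¹ := by
      group
    rw [e2, e]
  exact mul_inv_eq_iff_eq_mul.1 e'

private theorem flip (σ : Equiv.Perm (Fin (m + 3))) (x y : Sp 2 F)
    (h : Commute (G.ι x) (G.θ σ⁻¹ * G.ι y * (G.θ σ⁻¹)⁻¹)) :
    Commute (G.ι y) (G.θ σ * G.ι x * (G.θ σ)⁻¹) := by
  have h2 := (Commute.conj_iff (G.θ σ)).2 h
  have e : G.θ σ * (G.θ σ⁻¹ * G.ι y * (G.θ σ⁻¹)⁻¹) * (G.θ σ)⁻¹ = G.ι y := by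
    rw [map_inv]
    group
  rw [e] at h2
  exact h2.symm

-- piece `dsd`
theorem short_dis (σ : Equiv.Perm (Fin (m + 3))) (h1 : σ 0 ≠ 0) (h2 : σ 0 ≠ 1) (h3 : σ 1 ≠ 0)
    (h4 : σ 1 ≠ 1) (g g' : Sp 2 F)
    (sp4_gen' : Subgroup.closure ({g : Sp 2 F | ∃ (a : I 2) (t : F), ab a = 0 ∧ g = X a (ng a) t} ∪
      {PM F (Equiv.swap 0 1), vv F}) = ⊤)
    (L1 : ∀ (σ : Equiv.Perm (Fin (m + 3))), σ 0 = 0 → σ 1 = 1 → ∀ g : Sp 2 F,
      Commute (G.θ σ) (G.ι g))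
    (long_dis : ∀ (a : I 2), ab a = 0 → ∀ (t : F) (g : Sp 2 F),
      Commute (G.θ (Equiv.swap 0 2) * G.ι (X a (ng a) t) * (G.θ (Equiv.swap 0 2))⁻¹) (G.ι g)) :
    Commute (G.ι g) (G.θ σ * G.ι g' * (G.θ σ)⁻¹) := by
  -- the inverse permutation satisfies the same hypotheses
  have inv_ne : ∀ i j : Fin (m + 3), σ j ≠ i → σ⁻¹ i ≠ j := by
    intro i j hij e
    apply hij
    rw [← e, ← Equiv.Perm.mul_apply, mul_inv_cancel, Equiv.Perm.one_apply]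
  have k1 : σ⁻¹ 0 ≠ 0 := inv_ne 0 0 h1
  have k2 : σ⁻¹ 0 ≠ 1 := inv_ne 0 1 h3
  have k3 : σ⁻¹ 1 ≠ 0 := inv_ne 1 0 h2
  have k4 : σ⁻¹ 1 ≠ 1 := inv_ne 1 1 h4
  have hV : ∀ y : Sp 2 F, Commute (G.ι (vv F)) (G.θ σ * G.ι y * (G.θ σ)⁻¹) := by
    intro y
    refine comm_all _ sp4_gen' (cj G σ) (G.ι (vv F)) ?_ y
    intro x hx
    rw [cj_apply]
    rcases hx with ⟨a, t, ha, rfl⟩ | hx
    · exact flip G σ _ _ (claimA G L1 long_dis σ⁻¹ k1 k3 a ha t (vv F))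
    · rcases hx with rfl | hx
      · exact flip G σ _ _ (claimS G L1 σ⁻¹ k1 k2 k3 k4 (vv F))
      · rw [Set.mem_singleton_iff] at hx
        rw [hx]
        exact G.k5 σ h1 h2 h3 h4
  refine (comm_all _ sp4_gen' G.ι (G.θ σ * G.ι g' * (G.θ σ)⁻¹) ?_ g).symm
  intro x hx
  rcases hx with ⟨a, t, ha, rfl⟩ | hx
  · exact (claimA G L1 long_dis σ h1 h3 a ha t g').symm
  · rcases hx with rfl | hx
    · exact (claimS G L1 σ h1 h2 h3 h4 g').symm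
    · rw [Set.mem_singleton_iff] at hx
      rw [hx]
      exact (hV g').symm

end Cfsg.Agent.Lib.Helper40SpDsd
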