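import Cfsg.Agent.Lib.Helper43SpDefs2
import Cfsg.Agent.Lib.Helper65SpAPI

set_option autoImplicit false

/-! Project 243, wave 3, piece `pchain`. -/

namespace Cfsg.Agent.Lib.Helper40SpPchain

open Matrix Cfsg.Agent.Lib.Helper43BP Cfsg.Agent.Lib.Helper43St Cfsg.Agent.Lib.Helper43Sp

private theorem conj_rel {P : Type*} [Group P] (h A B C A' B' C' : P) (hA : h * A * h⁻¹ = A')
    (hB : h * B * h⁻¹ = B') (hC : h * C * h⁻¹ = C') (hrel : A * B * A⁻¹ * B⁻¹ = C) :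
    A' * B' * A'⁻¹ * B'⁻¹ = C' := by
  rw [← hA, ← hB, ← hC, ← hrel]
  group

private theorem chi_ex {n : ℕ} {F : Type*} [Field F] (a : I n) (l : Fˣ) :
    ∃ u : Fˣ, chi (Pi.mulSingle (ab a) u) a = l ∧
      ∀ b : I n, ab b ≠ ab a → chi (Pi.mulSingle (ab a) u) b = 1 := by
  rcases a with i | i
  · refine ⟨l, by simp [chi, ab], ?_⟩
    intro b hb
    rcases b with j | j
    · have hb' : j ≠ i := hb
      simp [chi, ab, Pi.mulSingle_eq_of_ne hb']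
    · have hb' : j ≠ i := hb
      simp [chi, ab, Pi.mulSingle_eq_of_ne hb']
  · refine ⟨l⁻¹, by simp [chi, ab], ?_⟩
    intro b hb
    rcases b with j | j
    · have hb' : j ≠ i := hb
      simp [chi, ab, Pi.mulSingle_eq_of_ne hb']
    · have hb' : j ≠ i := hb
      simp [chi, ab, Pi.mulSingle_eq_of_ne hb']

variable {m : ℕ} {F : Type*} [Field F] {P : Type*} [Group P] (Y : PSys (m + 3) F P)

-- piece `pchain`
theorem y_chain
    (h6 : Y.x (Sum.inl 0) (Sum.inl 1) 1 * Y.x (Sum.inl 1) (Sum.inl 2) 1 * (Y.x (Sum.inl 0) (Sum.inl 1) 1)⁻¹ *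
      (Y.x (Sum.inl 1) (Sum.inl 2) 1)⁻¹ = Y.x (Sum.inl 0) (Sum.inl 2) 1)
    (a b c : I (m + 3)) (hab : ab a ≠ ab b) (hbc : ab b ≠ ab c) (hac : ab a ≠ ab c) (s t : F)
    (y_zero : ∀ (a b : I (m + 3)), a ≠ b → Y.x a b 0 = 1)
    (y_scale : ∀ (i : Fin (m + 3)) (u : Fˣ) (a b : I (m + 3)), a ≠ b → ∀ t : F,
      Y.hl i u * Y.x a b t * (Y.hl i u)⁻¹ =
        Y.x a b (((chi (Pi.mulSingle i u) a : Fˣ) : F) * ((chi (Pi.mulSingle i u) b : Fˣ) : F)⁻¹ * t))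
    (trans3 : ∀ τ : Fin 3 → I (m + 3), Function.Injective (ab ∘ τ) →
      ∃ n : P, ∀ p q : Fin 3, p ≠ q → ∀ t, ∃ t',
        n * Y.x (Sum.inl ((![0, 1, 2] : Fin 3 → Fin (m + 3)) p))
          (Sum.inl ((![0, 1, 2] : Fin 3 → Fin (m + 3)) q)) t * n⁻¹ = Y.x (τ p) (τ q) t') :
    Y.x a b s * Y.x b c t * (Y.x a b s)⁻¹ * (Y.x b c t)⁻¹ = Y.x a c (s * t) := by
  have nab : a ≠ b := fun e => hab (by rw [e])
  have nbc : b ≠ c := fun e => hbc (by rw [e])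
  have nac : a ≠ c := fun e => hac (by rw [e])
  by_cases hs : s = 0
  · rw [hs, zero_mul, y_zero a b nab, y_zero a c nac]
    group
  by_cases ht : t = 0
  · rw [ht, mul_zero, y_zero b c nbc, y_zero a c nac]
    group
  -- it suffices to get the relation with some third parameter
  suffices hex : ∃ r, Y.x a b s * Y.x b c t * (Y.x a b s)⁻¹ * (Y.x b c t)⁻¹ = Y.x a c r by
    obtain ⟨r, hr⟩ := hex
    have h1 := congrArg Y.π hr
    rw [map_mul, map_mul, map_mul, map_inv, map_inv, Y.hπ a b s nab, Y.hπ b c t nbc,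
      Y.hπ a c r nac, Helper65SpAPI.X_chain a b c hab hbc hac s t] at h1
    rw [hr, ← Helper65SpAPI.X_inj a c nac _ _ h1]
  -- the base relation
  have hτ : Function.Injective (ab ∘ (![a, b, c] : Fin 3 → I (m + 3))) := by
    intro p q hpq
    fin_cases p <;> fin_cases q <;> simp_all
  obtain ⟨n, hn⟩ := trans3 _ hτ
  obtain ⟨c1, hc1⟩ := hn 0 1 (by decide) 1
  obtain ⟨c2, hc2⟩ := hn 1 2 (by decide) 1
  obtain ⟨c3, hc3⟩ := hn 0 2 (by decide) 1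
  have hc1' : n * Y.x (Sum.inl 0) (Sum.inl 1) 1 * n⁻¹ = Y.x a b c1 := hc1
  have hc2' : n * Y.x (Sum.inl 1) (Sum.inl 2) 1 * n⁻¹ = Y.x b c c2 := hc2
  have hc3' : n * Y.x (Sum.inl 0) (Sum.inl 2) 1 * n⁻¹ = Y.x a c c3 := hc3
  have hbase := conj_rel n _ _ _ _ _ _ hc1' hc2' hc3' h6
  have hne : ∀ (i j : Fin (m + 3)), i ≠ j → ∀ (a' b' : I (m + 3)), a' ≠ b' → ∀ r : F,
      n * Y.x (Sum.inl i) (Sum.inl j) 1 * n⁻¹ = Y.x a' b' r → r ≠ 0 := by
    intro i j hij a' b' hab' r hr hr0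
    rw [hr0, y_zero a' b' hab'] at hr
    have h1 : Y.x (Sum.inl i) (Sum.inl j) 1 = 1 := by
      have : Y.x (Sum.inl i) (Sum.inl j) 1 = n⁻¹ * (n * Y.x (Sum.inl i) (Sum.inl j) 1 * n⁻¹) * n := by
        group
      rw [this, hr]
      group
    have hij' : (Sum.inl i : I (m + 3)) ≠ Sum.inl j := fun e => hij (Sum.inl.inj e)
    have h2 := congrArg Y.π h1
    rw [Y.hπ _ _ _ hij', map_one, ← Helper65SpAPI.X_zero (Sum.inl i) (Sum.inl j)] at h2
    exact one_ne_zero (Helper65SpAPI.X_inj _ _ hij' _ _ h2)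
  have h01 : (0 : Fin (m + 3)) ≠ 1 := by
    intro h; have := congrArg Fin.val h; simp at this
  have h12 : (1 : Fin (m + 3)) ≠ 2 := by
    intro h
    have := congrArg Fin.val h
    rw [Fin.val_one, Fin.val_two] at this
    omega
  have hc10 : c1 ≠ 0 := hne 0 1 h01 a b nab c1 hc1'
  have hc20 : c2 ≠ 0 := hne 1 2 h12 b c nbc c2 hc2'
  -- scale the first parameter
  obtain ⟨u1, hu1, hu1'⟩ := chi_ex a (Units.mk0 (s / c1) (div_ne_zero hs hc10))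
  have e1 := y_scale (ab a) u1 a b nab c1
  have e2 := y_scale (ab a) u1 b c nbc c2
  have e3 := y_scale (ab a) u1 a c nac c3
  rw [hu1, hu1' b (Ne.symm hab)] at e1
  rw [hu1' b (Ne.symm hab), hu1' c (Ne.symm hac)] at e2
  have hstep1 := conj_rel _ _ _ _ _ _ _ e1 e2 e3 hbase
  have f1 : ((Units.mk0 (s / c1) (div_ne_zero hs hc10) : Fˣ) : F) * (((1 : Fˣ) : F))⁻¹ * c1 = s := by
    rw [Units.val_mk0, Units.val_one, inv_one, mul_one, div_mul_cancel₀ _ hc10]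
  have f2 : (((1 : Fˣ) : F)) * (((1 : Fˣ) : F))⁻¹ * c2 = c2 := by
    rw [Units.val_one, inv_one, mul_one, one_mul]
  rw [f1, f2] at hstep1
  -- scale the second parameter
  obtain ⟨u2, hu2, hu2'⟩ := chi_ex c (Units.mk0 (c2 / t) (div_ne_zero hc20 ht))
  have g1 := y_scale (ab c) u2 a b nab s
  have g2 := y_scale (ab c) u2 b c nbc c2
  have g3 := y_scale (ab c) u2 a c nac
    (((chi (Pi.mulSingle (ab a) u1) a : Fˣ) : F) * ((chi (Pi.mulSingle (ab a) u1) c : Fˣ) : F)⁻¹ * c3)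
  rw [hu2' a hac, hu2' b hbc] at g1
  rw [hu2' b hbc, hu2] at g2
  have hstep2 := conj_rel _ _ _ _ _ _ _ g1 g2 g3 hstep1
  have k1 : (((1 : Fˣ) : F)) * (((1 : Fˣ) : F))⁻¹ * s = s := by
    rw [Units.val_one, inv_one, mul_one, one_mul]
  have k2 : (((1 : Fˣ) : F)) * ((Units.mk0 (c2 / t) (div_ne_zero hc20 ht) : Fˣ) : F)⁻¹ * c2 = t := by
    rw [Units.val_mk0, Units.val_one, one_mul]
    field_simp
  rw [k1, k2] at hstep2
  exact ⟨_, hstep2⟩

end Cfsg.Agent.Lib.Helper40SpPchain
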