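import Mathlib
import Cfsg.Agent.S5076

set_option autoImplicit false

namespace Cfsg.Agent.Lib.Helper41Fus

open Cfsg

/-- If `N_G(S) = S`, every `F_S(G)`-automorphism of `S` is inner. -/
theorem autGroup_inner {G : Type*} [Group G] (S : Subgroup G)
    (hN : Subgroup.normalizer (S : Set G) = S) (α : MulAut S)
    (hα : α ∈ (groupFusionSystem S).autGroup S) :
    ∃ s ∈ S, ∀ x : S, ((α x : S) : G) = s * x * s⁻¹ := by
  unfold FusionSystem.autGroup at hα
  induction hα using Subgroup.closure_induction with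
  | mem α hα =>
    obtain ⟨-, -, g, hg⟩ := hα
    have hg' : ∀ x : S, ((α x : S) : G) = g * x * g⁻¹ := hg
    refine ⟨g, ?_, hg'⟩
    rw [← hN, Subgroup.mem_normalizer_iff]
    intro x
    constructor
    · intro hx
      rw [← hg' ⟨x, hx⟩]
      exact (α ⟨x, hx⟩).2
    · intro hx
      obtain ⟨x', hx'⟩ := α.surjective ⟨_, hx⟩
      have h1 := hg' x'
      rw [hx'] at h1
      have h2 : x = x' := mul_left_cancel (mul_right_cancel h1)
      rw [h2]; exact x'.2
  | one => exact ⟨1, S.one_mem, fun x => by simp⟩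
  | mul α β _ _ ihα ihβ =>
    obtain ⟨s, hs, hα⟩ := ihα
    obtain ⟨t, ht, hβ⟩ := ihβ
    refine ⟨s * t, S.mul_mem hs ht, fun x => ?_⟩
    rw [MulAut.mul_apply, hα, hβ]; group
  | inv α _ ih =>
    obtain ⟨s, hs, hα⟩ := ih
    refine ⟨s⁻¹, S.inv_mem hs, fun x => ?_⟩
    have h1 := hα (α⁻¹ x)
    rw [MulAut.apply_inv_self] at h1
    rw [h1]; group

/-- Simplicity criterion for `F_S(G)`: `N_G(S) = S` and no proper nontrivial strongly closed
subgroups. -/
theorem isSimple_of {G : Type*} [Group G] [Finite G] (p : ℕ) [Fact p.Prime] (S : Sylow p G)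
    (hS : (S : Subgroup G) ≠ ⊥)
    (hN : Subgroup.normalizer ((S : Subgroup G) : Set G) = (S : Subgroup G))
    (hT : ∀ T : Subgroup G, (groupFusionSystem (S : Subgroup G)).StronglyClosed T →
      T = ⊥ ∨ T = (S : Subgroup G)) :
    (groupFusionSystem (S : Subgroup G)).IsSimple p := by
  refine ⟨Cfsg.Agent.S5076.result p S, hS, ?_⟩
  intro T E hE
  obtain ⟨⟨hEsat, hFsat, hsub, hclosed, hinv, hfrat⟩, hext⟩ := hE
  rcases hT T hclosed with h | h
  · exact Or.inl h
  · right
    refine ⟨h, ?_⟩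
    subst h
    intro P
    apply Set.Subset.antisymm (hsub P)
    intro φ hφ
    have hPS : P ≤ (S : Subgroup G) := hφ.1
    obtain ⟨α, hα, φ₀, hφ₀, hcomp⟩ := hfrat P hPS φ hφ
    obtain ⟨s, hs, hαs⟩ := autGroup_inner (S : Subgroup G) hN α hα
    have h0 : ∀ x : P, φ₀ x ∈ (S : Subgroup G) := (E.le_of_mem hφ₀).2
    have := E.comp_mem hφ₀ (E.conj_mem (le_refl _) hs) h0
    convert this using 1
    ext x
    rw [hcomp x (h0 x), hαs]
    rfl

end Cfsg.Agent.Lib.Helper41Fus
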