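import Mathlib
import Cfsg.Agent.Lib.Helper7Sp
import Cfsg.Agent.Lib.Helper45Sp

set_option autoImplicit false
open Cfsg

/-! Automorphisms of `PSp_{2m}(F)`: basic facts on transvections modulo the centre (helper42). -/

namespace Cfsg.Agent.Lib.Helper42AutSpA

open Matrix Cfsg.Agent.Lib.Helper17Symp Cfsg.Agent.Lib.Helper17Symp2 Cfsg.Agent.Lib.Helper7Sp

variable {F : Type*} [Field F] {m : ℕ}

local notation "V" => (Fin m ⊕ Fin m → F)
local notation "Sp" => Matrix.symplecticGroup (Fin m) F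
local notation "Mat" => Matrix (Fin m ⊕ Fin m) (Fin m ⊕ Fin m) F
local notation "ff" => sympForm m F
local notation "π" => (QuotientGroup.mk : Matrix.symplecticGroup (Fin m) F → Cfsg.PSp m F)

theorem exists_one {v : V} (hv : v ≠ 0) : ∃ x : V, ff x v = 1 := by
  obtain ⟨y, hy⟩ : ∃ y, ff v y ≠ 0 := by
    by_contra hcon
    push Not at hcon
    exact hv (sympForm_nondeg m v hcon)
  refine ⟨(-(ff v y)⁻¹) • y, ?_⟩
  have h1 : ff y v = - ff v y := sympForm_swap m y v
  rw [sympForm_smul_left, h1, neg_mul_neg, inv_mul_cancel₀ hy]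

theorem ff_zero_symm {u v : V} (h : ff u v = 0) : ff v u = 0 := by
  rw [sympForm_swap, h, neg_zero]

theorem exists_perp3 (hm : 2 ≤ m) (u1 u2 u3 : V) :
    ∃ x : V, x ≠ 0 ∧ ff x u1 = 0 ∧ ff x u2 = 0 ∧ ff x u3 = 0 := by
  let L : V →ₗ[F] (Fin 3 → F) :=
    LinearMap.pi ![(sB m).flip u1, (sB m).flip u2, (sB m).flip u3]
  have h1 : Module.finrank F (Fin 3 → F) < Module.finrank F V := by
    simp only [Module.finrank_fintype_fun_eq_card, Fintype.card_fin, Fintype.card_sum]
    omega
  have h2 := LinearMap.ker_ne_bot_of_finrank_lt (f := L) h1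
  obtain ⟨x, hx, hx0⟩ := (Submodule.ne_bot_iff _).mp h2
  rw [LinearMap.mem_ker] at hx
  refine ⟨x, hx0, ?_, ?_, ?_⟩
  · have := congrFun hx 0
    simpa [L, sB_apply] using this
  · have := congrFun hx 1
    simpa [L, sB_apply] using this
  · have := congrFun hx 2
    simpa [L, sB_apply] using this

theorem mk_eq_iff (hm : 1 ≤ m) (g h : Sp) :
    π g = π h ↔ g = h ∨ (g : Mat) = -(h : Mat) := by
  rw [QuotientGroup.eq, Cfsg.Agent.Lib.Helper45Sp.mem_center_iff hm]
  constructor
  · rintro (h1 | h1)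
    · left
      have : g⁻¹ * h = 1 := Subtype.ext h1
      rw [inv_mul_eq_one] at this
      exact this
    · right
      have h2 : (g : Mat) * ((g⁻¹ * h : Sp) : Mat) = (h : Mat) := by
        have : g * (g⁻¹ * h) = h := by group
        exact congrArg Subtype.val this
      rw [h1, mul_neg, mul_one] at h2
      rw [← h2, neg_neg]
  · rintro (h1 | h1)
    · left
      rw [h1, inv_mul_cancel]; rfl
    · right
      have h2 : ((g⁻¹ * h : Sp) : Mat) = ((g⁻¹ : Sp) : Mat) * (h : Mat) := rfl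
      have h3 : (h : Mat) = -(g : Mat) := by rw [h1, neg_neg]
      have h4 : ((g⁻¹ : Sp) : Mat) * (g : Mat) = 1 := by
        have : g⁻¹ * g = 1 := inv_mul_cancel g
        exact congrArg Subtype.val this
      rw [h2, h3, mul_neg, h4]

/-- Two elements with the same image in `PSp` agreeing on a non-zero vector are equal. -/
theorem eq_of_mk_eq (hm : 1 ≤ m) {g h : Sp} (hgh : π g = π h) {x : V} (hx : x ≠ 0)
    (hx' : (g : Mat) *ᵥ x = (h : Mat) *ᵥ x) : g = h := by
  rcases (mk_eq_iff hm g h).mp hgh with h1 | h1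
  · exact h1
  · have h2 : (h : Mat) *ᵥ x ≠ 0 := by
      intro h0
      apply hx
      have := coe_inv_mulVec' h x
      rw [h0, mulVec_zero] at this
      exact this.symm
    rw [h1, neg_mulVec] at hx'
    have h3 : (2 : F) • ((h : Mat) *ᵥ x) = 0 := by
      rw [two_smul]
      nth_rewrite 1 [← hx']
      exact neg_add_cancel _
    have h4 : (2 : F) = 0 := by
      rcases smul_eq_zero.mp h3 with h | h
      · exact h
      · exact absurd h h2
    apply Subtype.ext
    rw [h1]
    have : (h : Mat) + (h : Mat) = 0 := by rw [← two_smul F (h : Mat), h4, zero_smul]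
    exact neg_eq_of_add_eq_zero_left this

theorem tv_fix {v x : V} (a : F) (h : ff x v = 0) : (tv m v a : Mat) *ᵥ x = x := by
  rw [tv_mulVec, h, mul_zero, zero_smul, add_zero]

theorem tv_inj {v : V} (hv : v ≠ 0) {a b : F} (h : tv m v a = tv m v b) : a = b := by
  obtain ⟨x, hx⟩ := exists_one hv
  have h1 := congrArg (fun A : Sp => (A : Mat) *ᵥ x) h
  simp only [tv_mulVec, hx, mul_one, add_right_inj] at h1
  exact smul_left_injective F hv h1

theorem tv_par {v w : V} {a b : F} (hv : v ≠ 0) (ha : a ≠ 0) (h : tv m v a = tv m w b) :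
    ∃ c : F, v = c • w := by
  obtain ⟨x, hx⟩ := exists_one hv
  have h1 := congrArg (fun A : Sp => (A : Mat) *ᵥ x) h
  simp only [tv_mulVec, hx, mul_one, add_right_inj] at h1
  refine ⟨a⁻¹ * (b * ff x w), ?_⟩
  rw [mul_smul, ← h1, smul_smul, inv_mul_cancel₀ ha, one_smul]

theorem tv_ne_one {v : V} {a : F} (hv : v ≠ 0) (ha : a ≠ 0) : tv m v a ≠ 1 := by
  intro h
  rw [← tv_zero_right v] at h
  exact ha (tv_inj hv h)

theorem mk_tv_eq (hm : 2 ≤ m) {v w : V} {a b : F} (h : π (tv m v a) = π (tv m w b)) :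
    tv m v a = tv m w b := by
  obtain ⟨x, hx0, hx1, hx2, -⟩ := exists_perp3 hm v w 0
  exact eq_of_mk_eq (by omega) h hx0 (by rw [tv_fix a hx1, tv_fix b hx2])

theorem mk_tv_ne_one (hm : 2 ≤ m) {v : V} {a : F} (hv : v ≠ 0) (ha : a ≠ 0) :
    π (tv m v a) ≠ 1 := by
  intro h
  have h1 : π (tv m v a) = π (tv m v 0) := by rw [h, tv_zero_right]; rfl
  exact ha (tv_inj hv (mk_tv_eq hm h1))

theorem commute_tv {v w : V} (a b : F) (h : ff v w = 0) :
    tv m v a * tv m w b = tv m w b * tv m v a := by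
  have h1 := conj_tv (tv m v a) w b
  rw [tv_fix a (ff_zero_symm h), mul_inv_eq_iff_eq_mul] at h1
  exact h1

theorem ff_zero_of_commute {v w : V} {a b : F} (ha : a ≠ 0) (hb : b ≠ 0)
    (h : tv m v a * tv m w b = tv m w b * tv m v a) : ff v w = 0 := by
  by_contra hne
  have hw : w ≠ 0 := by
    rintro rfl
    exact hne (sympForm_zero_right m v)
  have h1 := conj_tv (tv m v a) w b
  rw [h, mul_inv_cancel_right] at h1
  obtain ⟨c, hc⟩ := tv_par hw hb h1
  rw [tv_mulVec] at hc
  -- pair with `w`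
  have h2 := congrArg (fun z => ff z w) hc
  simp only [sympForm_self, sympForm_smul_left, sympForm_add_left, zero_add] at h2
  have h3 : ff w v ≠ 0 := fun h0 => hne (ff_zero_symm h0)
  have hc0 : c ≠ 0 := by
    rintro rfl
    rw [zero_smul] at hc
    exact hw hc
  have : c * (a * ff w v * ff v w) ≠ 0 :=
    mul_ne_zero hc0 (mul_ne_zero (mul_ne_zero ha h3) hne)
  exact this h2.symm

theorem mk_commute_iff (hm : 2 ≤ m) {v w : V} {a b : F} (ha : a ≠ 0) (hb : b ≠ 0) :
    π (tv m v a) * π (tv m w b) = π (tv m w b) * π (tv m v a) ↔ ff v w = 0 := by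
  constructor
  · intro h
    apply ff_zero_of_commute ha hb
    obtain ⟨x, hx0, hx1, hx2, -⟩ := exists_perp3 hm v w 0
    have h' : π (tv m v a * tv m w b) = π (tv m w b * tv m v a) := h
    apply eq_of_mk_eq (by omega) h' hx0
    rw [coe_mul_mulVec, coe_mul_mulVec, tv_fix b hx2, tv_fix a hx1, tv_fix b hx2]
  · intro h
    have := commute_tv a b h
    exact congrArg π this

/-- An isometry fixing the hyperplane `e^⊥` pointwise is a transvection with centre `e`. -/
theorem eq_tv_of_fix_perp (g : Sp) {e : V} (he : e ≠ 0)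
    (h : ∀ x, ff x e = 0 → (g : Mat) *ᵥ x = x) : ∃ a, g = tv m e a := by
  obtain ⟨y0, hy0⟩ := exists_one he
  have hdec : ∀ x, ff (x - ff x e • y0) e = 0 := by
    intro x
    rw [sympForm_sub_left, sympForm_smul_left, hy0, mul_one, sub_self]
  obtain ⟨d, hd⟩ : ∃ d, d = (g : Mat) *ᵥ y0 - y0 := ⟨_, rfl⟩
  have hgx : ∀ x, (g : Mat) *ᵥ x = x + ff x e • d := by
    intro x
    have h1 := h _ (hdec x)
    rw [mulVec_sub, mulVec_smul] at h1
    rw [hd, smul_sub]
    have : (g : Mat) *ᵥ x = (x - ff x e • y0) + ff x e • (g : Mat) *ᵥ y0 := by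
      rw [← h1]; abel
    rw [this]; abel
  have hdw : ∀ w, ff w e = 0 → ff d w = 0 := by
    intro w hw
    rw [hd, sympForm_sub_left]
    nth_rewrite 1 [← h w hw]
    rw [preserves, sub_self]
  have hd' : d - (-(ff d y0)) • e = 0 := by
    apply sympForm_nondeg m
    intro x
    have hx : x = (x - ff x e • y0) + ff x e • y0 := by abel
    have hey : ff e y0 = -1 := by rw [sympForm_swap, hy0]
    rw [hx, sympForm_add_right, sympForm_sub_left, sympForm_sub_left, hdw _ (hdec x),
      sympForm_smul_left, sympForm_smul_left, ff_zero_symm (hdec x), sympForm_smul_right,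
      sympForm_smul_right, hey]
    ring
  obtain ⟨a, ha⟩ : ∃ a, d = a • e := ⟨_, sub_eq_zero.mp hd'⟩
  refine ⟨a, ?_⟩
  apply ext_mulVec
  intro x
  rw [hgx, tv_mulVec, ha, smul_smul, mul_comm]

/-- The product of two transvections with non-parallel centres is not a transvection. -/
theorem par_of_mul_eq {v w u : V} {a b c : F} (hv : v ≠ 0) (hw : w ≠ 0) (ha : a ≠ 0) (hb : b ≠ 0)
    (h : tv m v a * tv m w b = tv m u c) : ∃ k : F, w = k • v := by
  by_contra hcon
  push Not at hcon
  -- a vector `x` with `f x w = 0`, `f x v = 1`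
  have key : ∀ x, (a * (ff x v + b * ff x w * ff w v)) • v + (b * ff x w) • w
      = (c * ff x u) • u := by
    intro x
    have h1 := congrArg (fun A : Sp => (A : Mat) *ᵥ x) h
    simp only [coe_mul_mulVec, tv_mulVec, sympForm_add_left, sympForm_smul_left] at h1
    have h2 : x + (b * ff x w) • w + (a * (ff x v + b * ff x w * ff w v)) • v
        = x + ((a * (ff x v + b * ff x w * ff w v)) • v + (b * ff x w) • w) := by abel
    rw [h2] at h1
    exact add_left_cancel h1
  obtain ⟨x1, hx1⟩ := exists_one hw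
  have k1 := key x1
  rw [hx1, mul_one] at k1
  -- find x2 with f x2 w = 0, f x2 v ≠ 0
  have hx2 : ∃ x2, ff x2 w = 0 ∧ ff x2 v ≠ 0 := by
    by_contra hc
    push Not at hc
    -- then v ∈ (w^⊥)^⊥ = <w>
    obtain ⟨y0, hy0⟩ := exists_one hw
    have : v - (ff y0 v) • w = 0 := by
      apply sympForm_nondeg m
      intro x
      have hx : x = (x - ff x w • y0) + ff x w • y0 := by abel
      have h0 : ff (x - ff x w • y0) w = 0 := by
        rw [sympForm_sub_left, sympForm_smul_left, hy0, mul_one, sub_self]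
      have h1 := hc _ h0
      have hwy : ff w y0 = -1 := by rw [sympForm_swap, hy0]
      rw [hx, sympForm_add_right, sympForm_sub_left, sympForm_sub_left, ff_zero_symm h1,
        sympForm_smul_left, sympForm_smul_left, ff_zero_symm h0, sympForm_smul_right,
        sympForm_smul_right, hwy, sympForm_swap m v y0]
      ring
    obtain ⟨k0, hv'⟩ : ∃ k0, v = k0 • w := ⟨_, sub_eq_zero.mp this⟩
    have hne : k0 ≠ 0 := by
      intro h0
      rw [h0, zero_smul] at hv'
      exact hv hv'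
    apply hcon k0⁻¹
    rw [hv', smul_smul, inv_mul_cancel₀ hne, one_smul]
  obtain ⟨x2, hx2w, hx2v⟩ := hx2
  have k2 := key x2
  rw [hx2w, mul_zero, zero_mul, add_zero, zero_smul, add_zero] at k2
  -- so v ∥ u
  have hcu : c * ff x2 u ≠ 0 := by
    intro h0
    rw [h0, zero_smul] at k2
    exact (smul_ne_zero (mul_ne_zero ha hx2v) hv) k2
  have hu : u = ((c * ff x2 u)⁻¹ * (a * ff x2 v)) • v := by
    rw [mul_smul, k2, smul_smul, inv_mul_cancel₀ hcu, one_smul]
  rw [hu] at k1
  apply hcon (b⁻¹ * ((c * ff x1 (((c * ff x2 u)⁻¹ * (a * ff x2 v)) • v)) *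
    ((c * ff x2 u)⁻¹ * (a * ff x2 v)) - a * (ff x1 v + b * ff w v)))
  have k3 : b • w = ((c * ff x1 (((c * ff x2 u)⁻¹ * (a * ff x2 v)) • v)) *
    ((c * ff x2 u)⁻¹ * (a * ff x2 v)) - a * (ff x1 v + b * ff w v)) • v := by
    rw [sub_smul, mul_smul, ← k1]
    abel
  rw [mul_smul, ← k3, smul_smul, inv_mul_cancel₀ hb, one_smul]

theorem mk_par_of_mul_eq (hm : 2 ≤ m) {v w u : V} {a b c : F} (hv : v ≠ 0) (hw : w ≠ 0)
    (ha : a ≠ 0) (hb : b ≠ 0) (h : π (tv m v a) * π (tv m w b) = π (tv m u c)) :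
    ∃ k : F, w = k • v := by
  apply par_of_mul_eq hv hw ha hb (u := u) (c := c)
  obtain ⟨x, hx0, hx1, hx2, hx3⟩ := exists_perp3 hm v w u
  have h' : π (tv m v a * tv m w b) = π (tv m u c) := h
  apply eq_of_mk_eq (by omega) h' hx0
  rw [coe_mul_mulVec, tv_fix b hx2, tv_fix a hx1, tv_fix c hx3]

end Cfsg.Agent.Lib.Helper42AutSpA
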