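import Mathlib
import Cfsg.Agent.Lib.Helper42AutSpA
import Cfsg.Agent.S0766

set_option autoImplicit false
open Cfsg

/-! Automorphisms of `PSp_{2m}(F)`, odd characteristic: transvections go to transvections
(the centre of a Sylow `p`-subgroup is a transvection group).  (helper42) -/

namespace Cfsg.Agent.Lib.Helper42AutSpB

open Matrix Cfsg.Agent.Lib.Helper17Symp Cfsg.Agent.Lib.Helper17Symp2 Cfsg.Agent.Lib.Helper7Sp
  Cfsg.Agent.Lib.Helper42AutSpA

variable {F : Type*} [Field F] {m : ℕ}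

local notation "V" => (Fin m ⊕ Fin m → F)
local notation "Sp" => Matrix.symplecticGroup (Fin m) F
local notation "Mat" => Matrix (Fin m ⊕ Fin m) (Fin m ⊕ Fin m) F
local notation "ff" => sympForm m F
local notation "π" => (QuotientGroup.mk : Matrix.symplecticGroup (Fin m) F → Cfsg.PSp m F)

theorem one_mulVec' (x : V) : ((1 : Sp) : Mat) *ᵥ x = x := by
  show (1 : Mat) *ᵥ x = x
  exact one_mulVec x

theorem inv_fix {g : Sp} {e : V} (h : (g : Mat) *ᵥ e = e) : ((g⁻¹ : Sp) : Mat) *ᵥ e = e := by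
  have := coe_inv_mulVec' g e
  rwa [h] at this

/-- The unipotent radical of the stabiliser of the vector `e`. -/
def QQ (e : V) : Subgroup Sp where
  carrier := {g | (g : Mat) *ᵥ e = e ∧ ∀ x, ff x e = 0 → ∃ c : F, (g : Mat) *ᵥ x = x + c • e}
  mul_mem' := by
    rintro g h ⟨hg1, hg2⟩ ⟨hh1, hh2⟩
    refine ⟨by rw [coe_mul_mulVec, hh1, hg1], ?_⟩
    intro x hx
    obtain ⟨c, hc⟩ := hh2 x hx
    obtain ⟨d, hd⟩ := hg2 x hx
    refine ⟨d + c, ?_⟩
    rw [coe_mul_mulVec, hc, mulVec_add, mulVec_smul, hg1, hd, add_smul, add_assoc]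
  one_mem' := ⟨one_mulVec' e, fun x _ => ⟨0, by rw [one_mulVec', zero_smul, add_zero]⟩⟩
  inv_mem' := by
    rintro g ⟨hg1, hg2⟩
    refine ⟨inv_fix hg1, ?_⟩
    intro x hx
    obtain ⟨c, hc⟩ := hg2 x hx
    refine ⟨-c, ?_⟩
    have h1 := coe_inv_mulVec' g x
    rw [hc, mulVec_add, mulVec_smul, inv_fix hg1] at h1
    rw [neg_smul, ← sub_eq_add_neg, eq_sub_iff_add_eq]
    exact h1

theorem mem_QQ {e : V} {g : Sp} : g ∈ QQ e ↔
    (g : Mat) *ᵥ e = e ∧ ∀ x, ff x e = 0 → ∃ c : F, (g : Mat) *ᵥ x = x + c • e := Iff.rfl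

theorem conj_mem_QQ {e : V} {g h : Sp} (hh : (h : Mat) *ᵥ e = e) (hg : g ∈ QQ e) :
    h * g * h⁻¹ ∈ QQ e := by
  obtain ⟨hg1, hg2⟩ := hg
  refine ⟨by rw [coe_mul_mulVec, coe_mul_mulVec, inv_fix hh, hg1, hh], ?_⟩
  intro x hx
  have h1 : ff (((h⁻¹ : Sp) : Mat) *ᵥ x) e = 0 := by
    rw [← inv_fix hh, preserves, hx]
  obtain ⟨c, hc⟩ := hg2 _ h1
  refine ⟨c, ?_⟩
  rw [coe_mul_mulVec, coe_mul_mulVec, hc, mulVec_add, coe_inv_mulVec, mulVec_smul, hh]

theorem mem_normalizer_QQ {e : V} {h : Sp} (hh : (h : Mat) *ᵥ e = e) :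
    h ∈ Subgroup.normalizer (QQ e : Set Sp) := by
  rw [Subgroup.mem_normalizer_iff]
  intro g
  constructor
  · exact conj_mem_QQ hh
  · intro hg
    have := conj_mem_QQ (inv_fix hh) hg
    have h2 : h⁻¹ * (h * g * h⁻¹) * h⁻¹⁻¹ = g := by group
    rwa [h2] at this

theorem EE_mem_QQ {e w : V} (h : ff e w = 0) (a : F) : EE e w a ∈ QQ e := by
  refine ⟨?_, ?_⟩
  · rw [EE_mulVec _ _ _ h, sympForm_self, h]
    simp
  · intro x hx
    refine ⟨a * ff x w, ?_⟩
    rw [EE_mulVec _ _ _ h, hx]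
    module

theorem tv_mem_QQ (e : V) (a : F) : tv m e a ∈ QQ e := by
  refine ⟨tv_fix a (sympForm_self m e), ?_⟩
  intro x hx
  exact ⟨0, by rw [tv_fix a hx, zero_smul, add_zero]⟩

theorem isPGroup_QQ (p : ℕ) [Fact p.Prime] [CharP F p] (hm : 1 ≤ m) (e : V) :
    IsPGroup p (QQ e) := by
  rintro ⟨g, hg1, hg2⟩
  refine ⟨2, ?_⟩
  apply Subtype.ext
  apply Subtype.ext
  show (g : Mat) ^ (p ^ 2) = 1
  have : Nonempty (Fin m ⊕ Fin m) := ⟨Sum.inl ⟨0, hm⟩⟩
  obtain ⟨N, hN⟩ : ∃ N : Mat, N = (g : Mat) - 1 := ⟨_, rfl⟩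
  have hNx : ∀ x, N *ᵥ x = (g : Mat) *ᵥ x - x := by
    intro x
    rw [hN, sub_mulVec, one_mulVec]
  have h1 : ∀ x, ff (N *ᵥ x) e = 0 := by
    intro x
    rw [hNx, sympForm_sub_left]
    nth_rewrite 1 [← hg1]
    rw [preserves, sub_self]
  have h3 : N * N * N = 0 := by
    apply Matrix.ext_of_mulVec_single
    intro i
    rw [← mulVec_mulVec, ← mulVec_mulVec, zero_mulVec]
    obtain ⟨c, hc⟩ := hg2 _ (h1 (Pi.single i 1))
    have h5 : N *ᵥ (N *ᵥ Pi.single i 1) = c • e := by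
      rw [hNx (N *ᵥ Pi.single i 1), hc, add_sub_cancel_left]
    rw [h5, mulVec_smul, hNx e, hg1, sub_self, smul_zero]
  have hg : (g : Mat) = N + 1 := by rw [hN]; abel
  have hp : 3 ≤ p ^ 2 := by
    have := (Fact.out : p.Prime).two_le
    nlinarith
  have hN0 : N ^ (p ^ 2) = 0 := by
    obtain ⟨k, hk⟩ := Nat.exists_eq_add_of_le hp
    rw [hk, pow_add, pow_succ, pow_two, h3, zero_mul]
  rw [hg, add_pow_char_pow_of_commute p 2 (Commute.one_right N), hN0, one_pow, zero_add]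

/-- the action of `Sp` on vectors -/
@[reducible] def actSp : MulAction Sp V where
  smul g x := (g : Mat) *ᵥ x
  one_smul x := one_mulVec' x
  mul_smul g h x := coe_mul_mulVec g h x

theorem sylow_fix [Fintype F] (p : ℕ) [Fact p.Prime] [CharP F p] (hm : 1 ≤ m) (P : Sylow p Sp) :
    ∃ e : V, e ≠ 0 ∧ (∀ g ∈ P, (g : Mat) *ᵥ e = e) ∧ QQ e ≤ P := by
  let _ := actSp (F := F) (m := m)
  have hdvd : p ∣ Nat.card V := by
    have h1 : p ∣ Fintype.card F :=
      (CharP.cast_eq_zero_iff F p (Fintype.card F)).mp (Nat.cast_card_eq_zero F)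
    rw [Nat.card_eq_fintype_card, Fintype.card_fun]
    apply dvd_pow h1
    simp only [Fintype.card_sum, Fintype.card_fin]
    omega
  have h0 : (0 : V) ∈ MulAction.fixedPoints P V := by
    intro g
    exact mulVec_zero _
  obtain ⟨e, he, he0⟩ := P.2.exists_fixed_point_of_prime_dvd_card_of_fixed_point V hdvd h0
  have hfix : ∀ g ∈ P, (g : Mat) *ᵥ e = e := fun g hg => he ⟨g, hg⟩
  refine ⟨e, he0.symm, hfix, ?_⟩
  have h1 : IsPGroup p ((P : Subgroup Sp) ⊔ QQ e : Subgroup Sp) :=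
    IsPGroup.to_sup_of_normal_right' P.2 (isPGroup_QQ p hm e)
      (fun g hg => mem_normalizer_QQ (hfix g hg))
  have h2 := P.is_maximal' h1 le_sup_left
  rw [← h2]
  exact le_sup_right

/-- An isometry fixing `e` and commuting with the Eichler elements is a transvection. -/
theorem eq_tv_of_commute (h2 : (2 : F) ≠ 0) {e : V} (he : e ≠ 0) (z : Sp)
    (hz : (z : Mat) *ᵥ e = e) (hc : ∀ w, ff e w = 0 → z * EE e w 1 = EE e w 1 * z) :
    ∃ a, z = tv m e a := by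
  apply eq_tv_of_fix_perp z he
  intro w hw
  have hw' : ff e w = 0 := ff_zero_symm hw
  have h1 := conj_EE z e w 1
  rw [hc w hw', mul_inv_cancel_right, hz] at h1
  have hzw : ff e ((z : Mat) *ᵥ w) = 0 := by
    nth_rewrite 1 [← hz]
    rw [preserves, hw']
  obtain ⟨x0, hx0⟩ := exists_one he
  have h3 := congrArg (fun A : Sp => (A : Mat) *ᵥ x0) h1
  simp only [EE_mulVec _ _ _ hw', EE_mulVec _ _ _ hzw, hx0, one_smul, add_right_inj] at h3
  -- h3 : w + ff x0 w • e = z w + ff x0 (z w) • e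
  obtain ⟨μ, hμ⟩ : ∃ μ : F, (z : Mat) *ᵥ w = w + μ • e := by
    obtain ⟨B, hB⟩ : ∃ B, B = ff x0 ((z : Mat) *ᵥ w) := ⟨_, rfl⟩
    rw [← hB] at h3
    refine ⟨ff x0 w - B, ?_⟩
    have : (z : Mat) *ᵥ w = (w + ff x0 w • e) - B • e := eq_sub_of_add_eq h3.symm
    rw [this]
    module
  rw [hμ, sympForm_add_right, sympForm_smul_right, hx0] at h3
  have h4 : ((2 : F) * μ) • e = 0 := by
    have : (w + ff x0 w • e) + ((2 : F) * μ) • e = w + μ • e + (ff x0 w + μ * 1) • e := by module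
    rw [← h3] at this
    exact add_left_cancel (this.trans (add_zero _).symm)
  rcases smul_eq_zero.mp h4 with h5 | h5
  · rcases mul_eq_zero.mp h5 with h6 | h6
    · exact absurd h6 h2
    · rw [hμ, h6, zero_smul, add_zero]
  · exact absurd h5 he

theorem exists_map {e e' : V} (he : e ≠ 0) (he' : e' ≠ 0) : ∃ g : Sp, (g : Mat) *ᵥ e = e' := by
  obtain ⟨x, hx⟩ := exists_one he
  obtain ⟨x', hx'⟩ := exists_one he'
  obtain ⟨A, -, -, hA⟩ := Cfsg.Agent.S0766.result m x e x' e' hx hx'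
  exact ⟨A, hA⟩

/-- In odd characteristic automorphisms of `PSp` map transvections to transvections. -/
theorem tv_map_odd [Fintype F] (p : ℕ) [Fact p.Prime] [CharP F p] (hp : p ≠ 2) (hm : 2 ≤ m)
    (β : MulAut (Cfsg.PSp m F)) (e : V) (a : F) :
    ∃ (e' : V) (a' : F), β (π (tv m e a)) = π (tv m e' a') := by
  classical
  have h2 : (2 : F) ≠ 0 := by
    intro h
    have h3 : ((2 : ℕ) : F) = 0 := by exact_mod_cast h
    rw [CharP.cast_eq_zero_iff F p 2] at h3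
    exact hp ((Nat.prime_dvd_prime_iff_eq Fact.out Nat.prime_two).mp h3)
  by_cases he : e = 0
  · subst he
    refine ⟨0, 0, ?_⟩
    rw [tv_zero_left, tv_zero_left]
    exact map_one β
  have hsurj : Function.Surjective (QuotientGroup.mk' (Subgroup.center Sp)) :=
    QuotientGroup.mk'_surjective _
  obtain ⟨P0⟩ : Nonempty (Sylow p Sp) := Sylow.nonempty
  obtain ⟨e0, he0, hfix0, hQ0⟩ := sylow_fix p (by omega) P0
  -- the claim for `e0`
  have claim : ∃ (e' : V) (a' : F), β (π (tv m e0 a)) = π (tv m e' a') := by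
    let R0 : Sylow p (Cfsg.PSp m F) := P0.mapSurjective hsurj
    let R1 : Sylow p (Cfsg.PSp m F) := R0.mapSurjective (f := β.toMonoidHom) β.surjective
    obtain ⟨P1, hP1⟩ := Sylow.mapSurjective_surjective hsurj p R1
    obtain ⟨e1, he1, hfix1, hQ1⟩ := sylow_fix p (by omega) P1
    have hmem : ∀ y : Cfsg.PSp m F, y ∈ R1 ↔ ∃ x ∈ P1, π x = y := by
      intro y
      rw [← hP1]
      exact Iff.rfl
    have hmem' : ∀ y : Cfsg.PSp m F, y ∈ R1 ↔ ∃ x ∈ P0, β (π x) = y := by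
      intro y
      constructor
      · rintro ⟨y', ⟨x, hx, rfl⟩, rfl⟩
        exact ⟨x, hx, rfl⟩
      · rintro ⟨x, hx, rfl⟩
        exact ⟨π x, ⟨x, hx, rfl⟩, rfl⟩
    have ht : tv m e0 a ∈ P0 := hQ0 (tv_mem_QQ e0 a)
    obtain ⟨z, hz, hzt⟩ := (hmem _).mp ((hmem' _).mpr ⟨_, ht, rfl⟩)
    have hcomm : ∀ x ∈ P1, z * x = x * z := by
      intro x hx
      obtain ⟨y, hy, hyx⟩ := (hmem' _).mp ((hmem _).mpr ⟨x, hx, rfl⟩)
      have h3 : tv m e0 a * y = y * tv m e0 a := by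
        have h4 := conj_tv y e0 a
        rw [hfix0 y hy, mul_inv_eq_iff_eq_mul] at h4
        exact h4.symm
      have h5 : π (z * x) = π (x * z) := by
        show π z * π x = π x * π z
        rw [hzt, ← hyx, ← map_mul, ← map_mul]
        congr 1
        exact congrArg π h3
      apply eq_of_mk_eq (by omega) h5 he1
      rw [coe_mul_mulVec, coe_mul_mulVec, hfix1 x hx, hfix1 z hz, hfix1 x hx]
    obtain ⟨a', ha'⟩ := eq_tv_of_commute h2 he1 z (hfix1 z hz)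
      (fun w hw => hcomm _ (hQ1 (EE_mem_QQ hw 1)))
    exact ⟨e1, a', by rw [← hzt, ha']⟩
  obtain ⟨e', a', h'⟩ := claim
  obtain ⟨g, hg⟩ := exists_map he0 he
  obtain ⟨h, hh⟩ := QuotientGroup.mk_surjective (β (π g))
  refine ⟨(h : Mat) *ᵥ e', a', ?_⟩
  rw [← hg, ← conj_tv, ← conj_tv]
  show β (π g * π (tv m e0 a) * (π g)⁻¹) = π h * π (tv m e' a') * (π h)⁻¹
  rw [map_mul, map_mul, map_inv, h', hh]

end Cfsg.Agent.Lib.Helper42AutSpB
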