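import Mathlib
import Cfsg.Agent.Lib.Helper42Inv

set_option autoImplicit false

/-! Centralisers of involutions `1 + N` in characteristic two: the orbit of the basis
`r i = N (u i)` of the image of `N` under the centraliser is parametrised by the matrices `A`
with `A * P * Aᵀ = P`, `P` the permutation matrix of `σ` (helper42). -/

namespace Cfsg.Agent.Lib.Helper42Cent

open Cfsg.Agent.Lib.Helper42Inv

variable {F V : Type*} [Field F] [AddCommGroup V] [Module F V]
variable {ι : Type*} [Fintype ι] [DecidableEq ι]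

set_option linter.unusedSectionVars false
set_option linter.unusedVariables false

/-- The permutation matrix of `σ`. -/
def PP (F : Type*) [Field F] (σ : ι → ι) : Matrix ι ι F :=
  Matrix.of fun i j => if j = σ i then 1 else 0

/-- The family attached to a matrix. -/
def Phi (N : V →ₗ[F] V) (σ : ι → ι) (u : ι → V) (A : Matrix ι ι F) (i : ι) : V :=
  ∑ k, A i k • N (u (σ k))

theorem sum_comp_inv {M : Type*} [AddCommMonoid M] (σ : ι → ι) (hσ : ∀ i, σ (σ i) = i)
    (g : ι → M) : ∑ i, g (σ i) = ∑ i, g i :=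
  Equiv.sum_comp ⟨σ, σ, hσ, hσ⟩ g

theorem mul_PP_mul_transpose (σ : ι → ι) (hσ : ∀ i, σ (σ i) = i) (A : Matrix ι ι F) (i l : ι) :
    (A * PP F σ * A.transpose) i l = ∑ k, A i k * A l (σ k) := by
  rw [Matrix.mul_apply, ← sum_comp_inv σ hσ]
  apply Finset.sum_congr rfl
  intro k _
  rw [Matrix.mul_apply, Matrix.transpose_apply, Finset.sum_eq_single k]
  · simp [PP]
  · intro b _ hb
    have : σ k ≠ σ b := fun hh => hb (by rw [← hσ b, ← hh, hσ])
    simp [PP, this]
  · simp

theorem transpose_mul_PP_mul (σ : ι → ι) (A : Matrix ι ι F) (k l : ι) :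
    (A.transpose * PP F σ * A) k l = ∑ i, A i k * A (σ i) l := by
  rw [Matrix.mul_assoc, Matrix.mul_apply]
  apply Finset.sum_congr rfl
  intro i _
  rw [Matrix.mul_apply, Matrix.transpose_apply, Finset.sum_eq_single (σ i)]
  · simp [PP]
  · intro b _ hb
    simp [PP, hb]
  · simp

theorem PP_mul_PP (σ : ι → ι) (hσ : ∀ i, σ (σ i) = i) : PP F σ * PP F σ = 1 := by
  ext i j
  rw [Matrix.mul_apply, Finset.sum_eq_single (σ i)]
  · by_cases h : i = j
    · subst h; simp [PP, hσ]
    · have : j ≠ σ (σ i) := by rw [hσ]; exact fun hh => h hh.symm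
      simp [PP, this, h]
  · intro b _ hb
    simp [PP, hb]
  · simp

theorem cond_iff (σ : ι → ι) (hσ : ∀ i, σ (σ i) = i) (A : Matrix ι ι F) :
    A * PP F σ * A.transpose = PP F σ ↔ A.transpose * PP F σ * A = PP F σ := by
  have hP := PP_mul_PP (F := F) σ hσ
  constructor
  · intro h
    have h1 : A * (PP F σ * A.transpose * PP F σ) = 1 := by
      rw [← Matrix.mul_assoc, ← Matrix.mul_assoc, h, hP]
    have h2 := mul_eq_one_comm.mp h1
    calc A.transpose * PP F σ * A
        = PP F σ * PP F σ * (A.transpose * PP F σ * A) := by rw [hP, Matrix.one_mul]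
      _ = PP F σ * (PP F σ * A.transpose * PP F σ * A) := by simp only [Matrix.mul_assoc]
      _ = PP F σ := by rw [h2, Matrix.mul_one]
  · intro h
    have h1 : (PP F σ * A.transpose * PP F σ) * A = 1 := by
      rw [Matrix.mul_assoc, Matrix.mul_assoc, ← Matrix.mul_assoc A.transpose, h, hP]
    have h2 := mul_eq_one_comm.mp h1
    calc A * PP F σ * A.transpose
        = (A * PP F σ * A.transpose) * (PP F σ * PP F σ) := by rw [hP, Matrix.mul_one]
      _ = (A * (PP F σ * A.transpose * PP F σ)) * PP F σ := by simp only [Matrix.mul_assoc]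
      _ = PP F σ := by rw [h2, Matrix.one_mul]

variable {f : LinearMap.BilinForm F V} {N : V →ₗ[F] V} {σ : ι → ι} {u : ι → V}

theorem formula_of_matrix (h : Dat f N σ u) (hσ : ∀ i, σ (σ i) = i) (A : Matrix ι ι F)
    (hA : A * PP F σ * A.transpose = PP F σ) (w : V) :
    N w = ∑ i, f w (Phi N σ u A i) • Phi N σ u A (σ i) := by
  have hA' : ∀ k l, ∑ i, A i k * A (σ i) l = if l = σ k then 1 else 0 := by
    intro k l
    rw [← transpose_mul_PP_mul, (cond_iff σ hσ A).mp hA]
    rfl
  have e1 : ∀ i, f w (Phi N σ u A i) • Phi N σ u A (σ i)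
      = ∑ k, ∑ l, (A i k * A (σ i) l) • (f w (N (u (σ k))) • N (u (σ l))) := by
    intro i
    simp only [Phi, map_sum, map_smul, smul_eq_mul]
    rw [Finset.sum_smul]
    apply Finset.sum_congr rfl
    intro k _
    rw [Finset.smul_sum]
    apply Finset.sum_congr rfl
    intro l _
    simp only [smul_smul]
    congr 1
    ring
  simp only [e1]
  rw [Finset.sum_comm]
  have e2 : ∀ k, ∑ i, ∑ l, (A i k * A (σ i) l) • (f w (N (u (σ k))) • N (u (σ l)))
      = f w (N (u (σ k))) • N (u (σ (σ k))) := by
    intro k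
    rw [Finset.sum_comm]
    simp only [← Finset.sum_smul, hA']
    rw [Finset.sum_eq_single (σ k)]
    · simp
    · intro b _ hb
      simp [hb]
    · simp
  simp only [e2]
  rw [sum_comp_inv σ hσ (fun k => f w (N (u k)) • N (u (σ k)))]
  exact h.formula w

theorem matrix_of_isometry (h : Dat f N σ u) (hσ : ∀ i, σ (σ i) = i) (g : V → V)
    (hg : ∀ x y, f (g x) (g y) = f x y) (hc : ∀ x, g (N x) = N (g x)) :
    (Matrix.of fun i k => f (g (u i)) (N (u k))) * PP F σ *
        (Matrix.of fun i k => f (g (u i)) (N (u k))).transpose = PP F σ ∧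
      ∀ i, g (N (u i)) = Phi N σ u (Matrix.of fun i k => f (g (u i)) (N (u k))) i := by
  constructor
  · ext i l
    rw [mul_PP_mul_transpose σ hσ]
    simp only [Matrix.of_apply]
    have h1 : f (g (u l)) (N (g (u i))) = if l = σ i then 1 else 0 := by
      rw [← hc, hg, h.gram]
    rw [h.formula (g (u i))] at h1
    simp only [map_sum, map_smul, smul_eq_mul] at h1
    rw [h1]
    rfl
  · intro i
    rw [hc, h.formula (g (u i))]
    rfl

theorem Phi_mem_range (A : Matrix ι ι F) (i : ι) : Phi N σ u A i ∈ LinearMap.range N :=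
  Submodule.sum_mem _ (fun k _ => Submodule.smul_mem _ _ ⟨_, rfl⟩)

theorem Phi_injective (h : Dat f N σ u) (hσ : ∀ i, σ (σ i) = i) :
    Function.Injective (Phi N σ u : Matrix ι ι F → ι → V) := by
  intro A B hAB
  have hli := h.li hσ
  have hli' : LinearIndependent F (fun k => N (u (σ k))) :=
    hli.comp σ (fun a b hab => by rw [← hσ a, hab, hσ])
  ext i k
  have h1 := congrFun hAB i
  simp only [Phi] at h1
  have h2 : ∑ k, (A i k - B i k) • N (u (σ k)) = 0 := by
    simp only [sub_smul, Finset.sum_sub_distrib, h1, sub_self]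
  have := Fintype.linearIndependent_iff.mp hli' _ h2 k
  exact sub_eq_zero.mp this

/-- A family satisfying the formula is linearly independent. -/
theorem li_of_formula [FiniteDimensional F V] (h : Dat f N σ u) (hσ : ∀ i, σ (σ i) = i)
    (x : ι → V) (hx : ∀ w, N w = ∑ i, f w (x i) • x (σ i)) : LinearIndependent F x := by
  rw [linearIndependent_iff_card_eq_finrank_span]
  apply le_antisymm
  · rw [← h.finrank_range hσ]
    apply Submodule.finrank_mono
    rintro _ ⟨w, rfl⟩
    rw [hx w]
    exact Submodule.sum_mem _ (fun i _ => Submodule.smul_mem _ _ (Submodule.subset_span ⟨_, rfl⟩))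
  · exact finrank_range_le_card x

/-- An isometry moving the basis `r` to a family satisfying the formula commutes with `N`. -/
theorem commute_of_formula (h : Dat f N σ u) (g : V →ₗ[F] V)
    (hg : ∀ x y, f (g x) (g y) = f x y)
    (hx : ∀ w, N w = ∑ i, f w (g (N (u i))) • g (N (u (σ i)))) (w : V) :
    g (N w) = N (g w) := by
  rw [hx (g w), h.formula w, map_sum]
  apply Finset.sum_congr rfl
  intro i _
  rw [map_smul, hg]

end Cfsg.Agent.Lib.Helper42Cent
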