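import Mathlib
import Cfsg.Agent.S0752
import Cfsg.Agent.Lib.Helper42Inv

set_option autoImplicit false

/-! Counting orthonormal frames of a non-degenerate, non-alternating symmetric bilinear form over
a finite field of characteristic two (helper42). -/

namespace Cfsg.Agent.Lib.Helper42ON

open Cfsg.Agent.Lib.Helper42Inv

universe u v

set_option linter.unusedSectionVars false
set_option linter.unusedVariables false
variable {F : Type v} [Field F]

theorem even_finrank_of_alt {W : Type*} [AddCommGroup W] [Module F W] [FiniteDimensional F W]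
    (β : LinearMap.BilinForm F W) (hnd : β.Nondegenerate) (hA : β.IsAlt) :
    Even (Module.finrank F W) := by
  obtain ⟨m, k, b, -, -, -, h4⟩ := Cfsg.Agent.S0752.result β hA
  have hk : k = 0 := by
    by_contra hk
    obtain ⟨j⟩ : Nonempty (Fin k) := ⟨⟨0, Nat.pos_of_ne_zero hk⟩⟩
    exact b.ne_zero (Sum.inr j) (hnd.1 _ (h4 j))
  rw [Module.finrank_eq_card_basis b]
  simp [hk]

/-- Orthonormal families. -/
def ON {W : Type*} [AddCommGroup W] [Module F W] (β : LinearMap.BilinForm F W) (n : ℕ) :
    Set (Fin n → W) := {w | ∀ i j, β (w i) (w j) = if i = j then 1 else 0}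

/-- The number of orthonormal bases. -/
def aa (q : ℕ) : ℕ → ℕ
  | 0 => 1
  | n + 1 => (q ^ n - if Even n ∧ n ≠ 0 then 1 else 0) * aa q n

theorem mem_perp {W : Type*} [AddCommGroup W] [Module F W] (β : LinearMap.BilinForm F W)
    (v w : W) : w ∈ β.orthogonal (Submodule.span F {v}) ↔ β v w = 0 := by
  rw [LinearMap.BilinForm.mem_orthogonal_iff]
  constructor
  · intro h
    exact h v (Submodule.mem_span_singleton_self v)
  · intro h n hn
    obtain ⟨c, rfl⟩ := Submodule.mem_span_singleton.mp hn
    rw [map_smul, LinearMap.smul_apply, h, smul_zero]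

theorem card_fiber_functional [Fintype F] {W : Type*} [AddCommGroup W] [Module F W] [Finite W]
    (L : W →ₗ[F] F) (hL : L ≠ 0) (c : F) :
    Nat.card {v : W // L v = c} = Fintype.card F ^ (Module.finrank F W - 1) := by
  have : FiniteDimensional F W := Module.Finite.of_finite
  have hsurj : Function.Surjective L := by
    obtain ⟨v, hv⟩ : ∃ v, L v ≠ 0 := by
      by_contra hh
      push Not at hh
      exact hL (LinearMap.ext hh)
    intro a
    exact ⟨(a / L v) • v, by rw [map_smul, smul_eq_mul, div_mul_cancel₀ _ hv]⟩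
  obtain ⟨v0, hv0⟩ := hsurj c
  have e : {v : W // L v = c} ≃ LinearMap.ker L :=
    { toFun := fun v => ⟨v.1 - v0, by rw [LinearMap.mem_ker, map_sub, v.2, hv0, sub_self]⟩
      invFun := fun k => ⟨k.1 + v0, by rw [map_add, LinearMap.mem_ker.mp k.2, hv0, zero_add]⟩
      left_inv := fun v => Subtype.ext (by simp)
      right_inv := fun k => Subtype.ext (by simp) }
  rw [Nat.card_congr e, Module.natCard_eq_pow_finrank (K := F), Nat.card_eq_fintype_card]
  congr 1
  have h1 := LinearMap.finrank_range_add_finrank_ker L
  rw [LinearMap.range_eq_top.mpr hsurj, finrank_top, Module.finrank_self] at h1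
  omega

section

variable [Fintype F] [CharP F 2]

theorem eq_one_of_sq {a : F} (h : a ^ 2 = 1) : a = 1 := by
  have h2 : (a - 1) ^ 2 = 0 := by
    linear_combination h + (1 - a) * (CharTwo.two_eq_zero : (2 : F) = 0)
  exact sub_eq_zero.mp (pow_eq_zero_iff (two_ne_zero) |>.mp h2)

variable {W : Type u} [AddCommGroup W] [Module F W] [Finite W] (β : LinearMap.BilinForm F W)

theorem exists_riesz (hs : ∀ x y, β x y = β y x) (hnd : β.Nondegenerate) :
    ∃ z, ∀ w, β w w = (β z w) ^ 2 := by
  have : FiniteDimensional F W := Module.Finite.of_finite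
  obtain ⟨L, hL⟩ := exists_sqrt β hs
  refine ⟨(β.toDual hnd).symm L, fun w => ?_⟩
  rw [LinearMap.BilinForm.apply_toDual_symm_apply, hL]

theorem isRefl_of_symm (hs : ∀ x y, β x y = β y x) : β.IsRefl := fun x y h => by rw [hs, h]

theorem finrank_perp (hnd : β.Nondegenerate) (v : W) (hv : v ≠ 0) :
    Module.finrank F (β.orthogonal (Submodule.span F {v})) = Module.finrank F W - 1 := by
  have : FiniteDimensional F W := Module.Finite.of_finite
  rw [LinearMap.BilinForm.finrank_orthogonal hnd, finrank_span_singleton hv]

theorem odd_finrank (hs : ∀ x y, β x y = β y x) (hnd : β.Nondegenerate) (z : W)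
    (hz : ∀ w, β w w = (β z w) ^ 2) (h1 : β z z = 1) : Odd (Module.finrank F W) := by
  have : FiniteDimensional F W := Module.Finite.of_finite
  have hz0 : z ≠ 0 := by
    rintro rfl
    simp at h1
  have hnd' := LinearMap.BilinForm.restrict_nondegenerate_orthogonal_spanSingleton β hnd
    (isRefl_of_symm β hs) (x := z) (by rw [h1]; exact one_ne_zero)
  have hev := even_finrank_of_alt _ hnd' (by
    intro w
    have hw := (mem_perp β z w.1).mp w.2
    change β w.1 w.1 = 0
    rw [hz, hw]
    simp)
  rw [finrank_perp β hnd z hz0] at hev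
  have hpos : 0 < Module.finrank F W := Module.finrank_pos_iff_exists_ne_zero.mpr ⟨z, hz0⟩
  obtain ⟨r, hr⟩ := hev
  exact ⟨r, by omega⟩

theorem even_finrank (hs : ∀ x y, β x y = β y x) (hnd : β.Nondegenerate) (z : W)
    (hz : ∀ w, β w w = (β z w) ^ 2) (h0 : β z z = 0) : Even (Module.finrank F W) := by
  have : FiniteDimensional F W := Module.Finite.of_finite
  have h11 : ∀ a : F, a + a = 0 := fun a => CharTwo.add_self_eq_zero a
  by_cases hz0 : z = 0
  · apply even_finrank_of_alt β hnd
    intro w
    rw [hz, hz0]
    simp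
  · obtain ⟨y', hy'⟩ : ∃ y, β z y ≠ 0 := by
      by_contra hh
      push Not at hh
      exact hz0 (hnd.1 z hh)
    set y := (β z y')⁻¹ • y' with hy
    have hzy : β z y = 1 := by
      rw [hy, map_smul, smul_eq_mul, inv_mul_cancel₀ hy']
    have hyy : β y y = 1 := by rw [hz, hzy, one_pow]
    have hy0 : y ≠ 0 := by
      intro h
      rw [h] at hyy
      simp at hyy
    have hnd' := LinearMap.BilinForm.restrict_nondegenerate_orthogonal_spanSingleton β hnd
      (isRefl_of_symm β hs) (x := y) (by rw [hyy]; exact one_ne_zero)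
    have hmem : z + y ∈ β.orthogonal (Submodule.span F {y}) := by
      rw [mem_perp, map_add, hs y z, hzy, hyy]
      exact h11 1
    have hodd := odd_finrank (β.restrict (β.orthogonal (Submodule.span F {y})))
      (fun a b => hs a.1 b.1) hnd' ⟨z + y, hmem⟩ (by
        intro w
        have hw := (mem_perp β y w.1).mp w.2
        change β w.1 w.1 = (β (z + y) w.1) ^ 2
        rw [map_add, LinearMap.add_apply, hw, add_zero, hz]) (by
        change β (z + y) (z + y) = 1
        simp only [map_add, LinearMap.add_apply]
        rw [h0, hs y z, hzy, hyy, zero_add, h11, add_zero])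
    rw [finrank_perp β hnd y hy0] at hodd
    have hpos : 0 < Module.finrank F W := Module.finrank_pos_iff_exists_ne_zero.mpr ⟨z, hz0⟩
    obtain ⟨r, hr⟩ := hodd
    exact ⟨r + 1, by omega⟩

theorem card_unit (hs : ∀ x y, β x y = β y x) (hnd : β.Nondegenerate) (hna : ∃ v, β v v ≠ 0) :
    Nat.card {v : W // β v v = 1} = Fintype.card F ^ (Module.finrank F W - 1) := by
  obtain ⟨z, hz⟩ := exists_riesz β hs hnd
  have hL : β z ≠ 0 := by
    intro h
    obtain ⟨v, hv⟩ := hna
    apply hv
    rw [hz, h]
    simp
  rw [← card_fiber_functional (β z) hL 1]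
  apply Nat.card_congr
  apply Equiv.subtypeEquivRight
  intro v
  rw [hz]
  exact ⟨eq_one_of_sq, fun h => by rw [h, one_pow]⟩

/-- The only unit vector with alternating orthogonal complement is the Riesz vector. -/
theorem bad_iff (hs : ∀ x y, β x y = β y x) (hnd : β.Nondegenerate) (z : W)
    (hz : ∀ w, β w w = (β z w) ^ 2) (v : W) (hv : β v v = 1) :
    (∀ w, β v w = 0 → β w w = 0) ↔ v = z := by
  constructor
  · intro h
    have hzv : β z v = 1 := eq_one_of_sq (by rw [← hz, hv])
    have h2 : ∀ w, β (v - z) w = 0 := by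
      intro w
      have h3 : β v (w - β v w • v) = 0 := by
        rw [map_sub, map_smul, hv, smul_eq_mul, mul_one, sub_self]
      have h4 := h _ h3
      rw [hz] at h4
      have h5 := pow_eq_zero_iff (two_ne_zero) |>.mp h4
      rw [map_sub, map_smul, hzv, smul_eq_mul, mul_one] at h5
      rw [map_sub, LinearMap.sub_apply]
      linear_combination -h5
    exact sub_eq_zero.mp (hnd.1 _ h2)
  · rintro rfl w hw
    rw [hz, hw]
    simp

/-- Peeling off the first vector of an orthonormal family. -/
def peel (hs : ∀ x y, β x y = β y x) (n : ℕ) : ON β (n + 1) ≃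
    Σ v : {v : W // β v v = 1}, ON (β.restrict (β.orthogonal (Submodule.span F {v.1}))) n where
  toFun w := ⟨⟨w.1 0, by simpa using w.2 0 0⟩,
    ⟨fun i => ⟨w.1 i.succ, by
      rw [mem_perp]
      simpa [Fin.succ_ne_zero, eq_comm] using w.2 0 i.succ⟩, fun i j => by
      simpa using w.2 i.succ j.succ⟩⟩
  invFun p := ⟨Fin.cons p.1.1 (fun i => ((p.2.1 i : β.orthogonal (Submodule.span F {p.1.1})) : W)), by
    intro i j
    refine Fin.cases ?_ (fun i => ?_) i <;> refine Fin.cases ?_ (fun j => ?_) j
    · simpa using p.1.2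
    · simpa [Fin.succ_ne_zero, eq_comm] using (mem_perp β p.1.1 _).mp (p.2.1 j).2
    · simp only [Fin.cons_zero, Fin.cons_succ]
      rw [hs]
      simpa [Fin.succ_ne_zero] using (mem_perp β p.1.1 _).mp (p.2.1 i).2
    · simpa using p.2.2 i j⟩
  left_inv w := Subtype.ext (by
    funext i
    refine Fin.cases ?_ (fun i => ?_) i <;> simp)
  right_inv := fun ⟨⟨_, _⟩, ⟨_, _⟩⟩ => rfl

end

theorem card_ON [Fintype F] [CharP F 2] (n : ℕ) :
    ∀ (W : Type u) [AddCommGroup W] [Module F W] [Finite W]
    (β : LinearMap.BilinForm F W) (hs : ∀ x y, β x y = β y x) (hnd : β.Nondegenerate)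
    (hdim : Module.finrank F W = n) (hna : n = 0 ∨ ∃ v, β v v ≠ 0),
    Nat.card (ON β n) = aa (Fintype.card F) n := by
  induction n with
  | zero =>
    intro W _ _ _ β hs hnd hdim hna
    have : Unique (ON β 0) :=
      { default := ⟨fun i => i.elim0, fun i => i.elim0⟩
        uniq := fun s => Subtype.ext (funext fun i => i.elim0) }
    simp [aa]
  | succ n ih =>
    intro W _ _ _ β hs hnd hdim hna
    classical
    have hna' : ∃ v, β v v ≠ 0 := by
      rcases hna with h | h
      · omega
      · exact h
    obtain ⟨z, hz⟩ := exists_riesz β hs hnd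
    have : Fintype {v : W // β v v = 1} := Fintype.ofFinite _
    rw [Nat.card_congr (peel β hs n), Nat.card_sigma]
    have hfib : ∀ v : {v : W // β v v = 1},
        Nat.card (ON (β.restrict (β.orthogonal (Submodule.span F {v.1}))) n)
          = if (n ≠ 0 ∧ v.1 = z) then 0 else aa (Fintype.card F) n := by
      intro v
      have hv0 : v.1 ≠ 0 := by
        intro h
        have := v.2
        rw [h] at this
        simp at this
      have hnd' := LinearMap.BilinForm.restrict_nondegenerate_orthogonal_spanSingleton β hnd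
        (isRefl_of_symm β hs) (x := v.1) (by rw [v.2]; exact one_ne_zero)
      have hdim' : Module.finrank F (β.orthogonal (Submodule.span F {v.1})) = n := by
        rw [finrank_perp β hnd v.1 hv0, hdim]
        rfl
      split_ifs with hc
      · obtain ⟨hn0, hvz⟩ := hc
        have hbad := (bad_iff β hs hnd z hz v.1 v.2).mpr hvz
        rw [Nat.card_eq_zero]
        left
        constructor
        rintro ⟨w, hw⟩
        obtain ⟨k, rfl⟩ := Nat.exists_eq_succ_of_ne_zero hn0
        have h1 : β (w 0).1 (w 0).1 = 1 := by simpa using hw 0 0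
        have h2 := hbad (w 0).1 ((mem_perp β v.1 _).mp (w 0).2)
        rw [h1] at h2
        exact one_ne_zero h2
      · apply ih _ _ (fun a b => hs a.1 b.1) hnd' hdim'
        by_cases hn0 : n = 0
        · left; exact hn0
        · right
          have hvz : v.1 ≠ z := fun h => hc ⟨hn0, h⟩
          have := mt (bad_iff β hs hnd z hz v.1 v.2).mp hvz
          push Not at this
          obtain ⟨w, hw1, hw2⟩ := this
          exact ⟨⟨w, (mem_perp β v.1 w).mpr hw1⟩, hw2⟩
    rw [Finset.sum_congr rfl (fun v _ => hfib v)]
    rw [Finset.sum_ite, Finset.sum_const_zero, zero_add, Finset.sum_const, smul_eq_mul]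
    change _ = (Fintype.card F ^ n - if Even n ∧ n ≠ 0 then 1 else 0) * aa (Fintype.card F) n
    congr 1
    have hcard : Fintype.card {v : W // β v v = 1} = Fintype.card F ^ n := by
      rw [← Nat.card_eq_fintype_card, card_unit β hs hnd hna', hdim]
      rfl
    have hsplit := Finset.card_filter_add_card_filter_not (s := Finset.univ)
      (p := fun v : {v : W // β v v = 1} => n ≠ 0 ∧ v.1 = z)
    rw [Finset.card_univ, hcard] at hsplit
    have hbadcard : (Finset.univ.filter
        (fun v : {v : W // β v v = 1} => n ≠ 0 ∧ v.1 = z)).card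
          = if Even n ∧ n ≠ 0 then 1 else 0 := by
      have hzz : β z z = 0 ∨ β z z = 1 := by
        have h := hz z
        have h' : β z z * (β z z - 1) = 0 := by linear_combination -h
        rcases mul_eq_zero.mp h' with h | h
        · left; exact h
        · right; exact sub_eq_zero.mp h
      rcases hzz with h0 | h1
      · have hev := even_finrank β hs hnd z hz h0
        rw [hdim] at hev
        have hne : ¬ Even n := fun h => (Nat.even_add_one.mp hev) h
        rw [if_neg (fun h => hne h.1), Finset.card_eq_zero, Finset.filter_eq_empty_iff]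
        rintro ⟨v, hv⟩ _ ⟨_, hvz⟩
        simp only at hvz
        rw [hvz, h0] at hv
        exact zero_ne_one hv
      · have hodd := odd_finrank β hs hnd z hz h1
        rw [hdim] at hodd
        have he : Even n := by
          by_contra hne
          exact (Nat.not_even_iff_odd.mpr hodd) (Nat.even_add_one.mpr hne)
        by_cases hn0 : n = 0
        · rw [if_neg (fun h => h.2 hn0), Finset.card_eq_zero, Finset.filter_eq_empty_iff]
          rintro v _ ⟨h, _⟩
          exact h hn0
        · rw [if_pos ⟨he, hn0⟩, Finset.card_eq_one]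
          refine ⟨⟨z, h1⟩, ?_⟩
          ext v
          simp [hn0, Subtype.ext_iff]
    omega

end Cfsg.Agent.Lib.Helper42ON
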