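import Mathlib
import Cfsg.Agent.Lib.Helper42Cent
import Cfsg.Agent.Lib.Helper42SpInv
import Cfsg.Agent.Lib.Helper17SpCount
import Cfsg.Agent.Lib.Helper42ON
import Cfsg.Agent.S0245

set_option autoImplicit false

/-! Centraliser orders of involutions of `Sp_{2m}(q)`, `q` even: reduction to a count of
matrices (helper42). -/

namespace Cfsg.Agent.Lib.Helper42CentSp

open Matrix Cfsg.Agent.Lib.Helper17Symp Cfsg.Agent.Lib.Helper17Symp2
  Cfsg.Agent.Lib.Helper17SpCount Cfsg.Agent.Lib.Helper42Inv Cfsg.Agent.Lib.Helper42SpInv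
  Cfsg.Agent.Lib.Helper42Cent Cfsg.Agent.Lib.Helper42ON

variable {F : Type*} [Field F] {m : ℕ}

theorem mem_centralizer_iff (t g : Matrix.symplecticGroup (Fin m) F) :
    g ∈ Subgroup.centralizer ({t} : Set (Matrix.symplecticGroup (Fin m) F)) ↔
      ∀ w, (g : Matrix (Fin m ⊕ Fin m) (Fin m ⊕ Fin m) F) *ᵥ (NN t w)
        = NN t ((g : Matrix (Fin m ⊕ Fin m) (Fin m ⊕ Fin m) F) *ᵥ w) := by
  rw [Subgroup.mem_centralizer_singleton_iff]
  constructor
  · intro h w
    have h' : g.1 * t.1 = t.1 * g.1 := congrArg Subtype.val h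
    rw [NN_apply, NN_apply, Matrix.mulVec_sub, Matrix.mulVec_mulVec, Matrix.mulVec_mulVec, h']
  · intro h
    apply Subtype.ext
    change g.1 * t.1 = t.1 * g.1
    apply Matrix.toLin'.injective
    apply LinearMap.ext
    intro x
    rw [Matrix.toLin'_apply, Matrix.toLin'_apply, ← Matrix.mulVec_mulVec, ← Matrix.mulVec_mulVec]
    have h1 := h x
    rw [NN_apply, NN_apply, Matrix.mulVec_sub] at h1
    exact sub_left_injective h1

theorem card_cent [Fintype F] [CharP F 2] (t : Matrix.symplecticGroup (Fin m) F) (ht : t * t = 1)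
    {ι : Type*} [Fintype ι] [DecidableEq ι] (σ : ι → ι) (hσ : ∀ i, σ (σ i) = i)
    (u : ι → (Fin m ⊕ Fin m → F)) (h : Dat (sB m) (NN t) σ u) :
    Nat.card ↥(Subgroup.centralizer ({t} : Set (Matrix.symplecticGroup (Fin m) F))) *
        ∏ i ∈ Finset.range (Fintype.card ι), (Fintype.card F ^ (2 * m - i) - Fintype.card F ^ i)
      = Nat.card (Matrix.symplecticGroup (Fin m) F) *
        Nat.card {A : Matrix ι ι F // A * PP F σ * A.transpose = PP F σ} := by
  set e := Fintype.equivFin ι with he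
  set x0 : Fin (Fintype.card ι) → (Fin m ⊕ Fin m → F) := fun i => NN t (u (e.symm i)) with hx0
  have hiso : ∀ a b, sB m (NN t a) (NN t b) = 0 := by
    intro a b
    rw [NN_sa t ht, NN_sq t ht, map_zero]
  have hli : LinearIndependent F x0 := (h.li hσ).comp _ e.symm.injective
  have hpres : ∀ (g : Matrix.symplecticGroup (Fin m) F) (x y : Fin m ⊕ Fin m → F),
      sB m (Matrix.mulVecLin g.1 x) (Matrix.mulVecLin g.1 y) = sB m x y := by
    intro g x y
    rw [sB_apply, sB_apply, Matrix.mulVecLin_apply, Matrix.mulVecLin_apply]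
    exact preserves g x y
  set Φ : {A : Matrix ι ι F // A * PP F σ * A.transpose = PP F σ} →
      (Fin (Fintype.card ι) → (Fin m ⊕ Fin m → F)) :=
    fun A i => Phi (NN t) σ u A.1 (e.symm i) with hΦ
  have hΦinj : Function.Injective Φ := by
    intro A B hAB
    apply Subtype.ext
    apply Phi_injective h hσ
    funext i
    have := congrFun hAB (e i)
    simpa [hΦ] using this
  have key := card_mul_prod m (Fintype.card ι)
    (Subgroup.centralizer ({t} : Set (Matrix.symplecticGroup (Fin m) F))) x0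
    ⟨hli, fun i j => hiso _ _⟩ (by
      intro g hg
      rw [mem_centralizer_iff]
      have hg' : ∀ i, g.1 *ᵥ NN t (u i) = NN t (u i) := by
        intro i
        have := hg (e i)
        simpa [hx0] using this
      intro w
      apply commute_of_formula h (Matrix.mulVecLin g.1) (hpres g)
      intro w
      simp only [Matrix.mulVecLin_apply, hg']
      exact h.formula w)
    (Set.range Φ) (by
      intro x
      constructor
      · rintro ⟨A, rfl⟩
        have hform := formula_of_matrix h hσ A.1 A.2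
        have hliA := li_of_formula h hσ _ hform
        obtain ⟨g, hg⟩ := witt_fam m (fun i => NN t (u i)) (Phi (NN t) σ u A.1) (h.li hσ) hliA (by
          intro i j
          obtain ⟨a, ha⟩ := Phi_mem_range (N := NN t) (σ := σ) (u := u) A.1 i
          obtain ⟨b, hb⟩ := Phi_mem_range (N := NN t) (σ := σ) (u := u) A.1 j
          rw [← sB_apply, ← sB_apply, hiso, ← ha, ← hb, hiso])
        refine ⟨g, ?_, fun i => hg _⟩
        rw [mem_centralizer_iff]
        intro w
        apply commute_of_formula h (Matrix.mulVecLin g.1) (hpres g)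
        intro w
        simp only [Matrix.mulVecLin_apply, hg]
        exact hform w
      · rintro ⟨g, hg, hx⟩
        rw [mem_centralizer_iff] at hg
        obtain ⟨h1, h2⟩ := matrix_of_isometry h hσ (fun v => g.1 *ᵥ v)
          (fun x y => hpres g x y) hg
        refine ⟨⟨_, h1⟩, ?_⟩
        funext i
        rw [← hx i]
        exact (h2 _).symm)
  rw [key, ← Nat.card_coe_set_eq, Nat.card_range_of_injective hΦinj]

theorem PP_id {ι : Type*} [DecidableEq ι] : PP F (id : ι → ι) = 1 := by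
  ext i j
  simp [PP, Matrix.one_apply, eq_comm]

theorem PP_swap [CharP F 2] (k : ℕ) : PP F (Sum.swap : Fin k ⊕ Fin k → Fin k ⊕ Fin k) = J (Fin k) F := by
  have h1 : ∀ a : F, -a = a := fun a => by
    rw [neg_eq_iff_add_eq_zero]; exact CharTwo.add_self_eq_zero a
  ext i j
  rcases i with i | i <;> rcases j with j | j <;>
    simp [PP, J, Matrix.one_apply, eq_comm, h1]

/-- The dot product as a bilinear form. -/
noncomputable def dotB (F : Type*) [Field F] (n : ℕ) : LinearMap.BilinForm F (Fin n → F) :=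
  Matrix.toBilin' (1 : Matrix (Fin n) (Fin n) F)

theorem dotB_apply (n : ℕ) (v w : Fin n → F) : dotB F n v w = v ⬝ᵥ w := by
  rw [dotB, Matrix.toBilin'_apply', Matrix.one_mulVec]

theorem card_matrix_id [Fintype F] [CharP F 2] (n : ℕ) :
    Nat.card {A : Matrix (Fin n) (Fin n) F // A * PP F id * A.transpose = PP F id}
      = aa (Fintype.card F) n := by
  rw [← card_ON n (Fin n → F) (dotB F n) (fun x y => by
      rw [dotB_apply, dotB_apply, dotProduct_comm]) ⟨fun x hx => dotProduct_eq_zero x (fun y => by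
        rw [← dotB_apply]; exact hx y), fun x hx => dotProduct_eq_zero x (fun y => by
        rw [dotProduct_comm, ← dotB_apply]; exact hx y)⟩ (by simp) (by
      rcases Nat.eq_zero_or_pos n with h | h
      · left; exact h
      · right
        refine ⟨Pi.single ⟨0, h⟩ 1, ?_⟩
        rw [dotB_apply]
        simp)]
  apply Nat.card_congr
  apply Equiv.subtypeEquivRight
  intro A
  rw [PP_id, Matrix.mul_one]
  constructor
  · intro h i j
    rw [dotB_apply]
    have := congrFun (congrFun h i) j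
    rw [Matrix.mul_apply, Matrix.one_apply] at this
    exact this
  · intro h
    ext i j
    have := h i j
    rw [dotB_apply] at this
    rw [Matrix.mul_apply, Matrix.one_apply]
    exact this

theorem card_matrix_swap [CharP F 2] (k : ℕ) :
    Nat.card {A : Matrix (Fin k ⊕ Fin k) (Fin k ⊕ Fin k) F //
        A * PP F Sum.swap * A.transpose = PP F Sum.swap}
      = Nat.card (Matrix.symplecticGroup (Fin k) F) := by
  apply Nat.card_congr
  apply Equiv.subtypeEquivRight
  intro A
  rw [PP_swap, SymplecticGroup.mem_iff]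

theorem aa_odd (q k : ℕ) :
    aa q (2 * k + 1) = q ^ (k ^ 2) * ∏ i ∈ Finset.range k, (q ^ (2 * (i + 1)) - 1) := by
  induction k with
  | zero => simp [aa]
  | succ k ih =>
    have e : 2 * (k + 1) + 1 = (2 * k + 1) + 1 + 1 := by ring
    rw [e]
    change (q ^ (2 * k + 1 + 1) - if Even (2 * k + 1 + 1) ∧ 2 * k + 1 + 1 ≠ 0 then 1 else 0) *
      ((q ^ (2 * k + 1) - if Even (2 * k + 1) ∧ 2 * k + 1 ≠ 0 then 1 else 0) * aa q (2 * k + 1)) = _
    have h1 : Even (2 * k + 1 + 1) ∧ 2 * k + 1 + 1 ≠ 0 := ⟨⟨k + 1, by ring⟩, by omega⟩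
    have h2 : ¬ (Even (2 * k + 1) ∧ 2 * k + 1 ≠ 0) := by
      rintro ⟨⟨r, hr⟩, -⟩
      omega
    rw [if_pos h1, if_neg h2, ih, Finset.prod_range_succ, Nat.sub_zero]
    have e2 : 2 * k + 1 + 1 = 2 * (k + 1) := by ring
    rw [e2]
    generalize q ^ (2 * (k + 1)) - 1 = X
    generalize ∏ i ∈ Finset.range k, (q ^ (2 * (i + 1)) - 1) = Y
    have e3 : q ^ ((k + 1) ^ 2) = q ^ (2 * k + 1) * q ^ (k ^ 2) := by
      rw [← pow_add]; congr 1; ring
    rw [e3]
    ring

theorem aa_even (q k : ℕ) :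
    aa q (2 * k + 2)
      = q ^ (2 * k + 1) * (q ^ (k ^ 2) * ∏ i ∈ Finset.range k, (q ^ (2 * (i + 1)) - 1)) := by
  change (q ^ (2 * k + 1) - if Even (2 * k + 1) ∧ 2 * k + 1 ≠ 0 then 1 else 0) * aa q (2 * k + 1) = _
  have h2 : ¬ (Even (2 * k + 1) ∧ 2 * k + 1 ≠ 0) := by
    rintro ⟨⟨r, hr⟩, -⟩
    omega
  rw [if_neg h2, aa_odd, Nat.sub_zero]

theorem rank_le [CharP F 2] (t : Matrix.symplecticGroup (Fin m) F) (ht : t * t = 1) :
    Module.finrank F (LinearMap.range (NN t)) ≤ m := by
  have h1 := LinearMap.finrank_range_add_finrank_ker (NN t)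
  have h2 : LinearMap.range (NN t) ≤ LinearMap.ker (NN t) := by
    rintro _ ⟨x, rfl⟩
    exact NN_sq t ht x
  have h3 := Submodule.finrank_mono h2
  have h4 : Module.finrank F (Fin m ⊕ Fin m → F) = 2 * m := by simp; ring
  omega

theorem card_cent_formula [Fintype F] [CharP F 2] {q : ℕ} (hF : Fintype.card F = q)
    (t : Matrix.symplecticGroup (Fin m) F) (ht : t * t = 1)
    {ι : Type*} [Fintype ι] [DecidableEq ι] (σ : ι → ι) (hσ : ∀ i, σ (σ i) = i)
    (u : ι → (Fin m ⊕ Fin m → F)) (h : Dat (sB m) (NN t) σ u) (s : ℕ) (hs : Fintype.card ι = s) :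
    Nat.card ↥(Subgroup.centralizer ({t} : Set (Matrix.symplecticGroup (Fin m) F)))
      = q ^ (s * (s + 1) / 2 + 2 * s * (m - s)) *
          (q ^ ((m - s) ^ 2) * ∏ i ∈ Finset.range (m - s), (q ^ (2 * (i + 1)) - 1)) *
        Nat.card {A : Matrix ι ι F // A * PP F σ * A.transpose = PP F σ} := by
  have hsm : s ≤ m := by
    rw [← hs, ← h.finrank_range hσ]
    exact rank_le t ht
  have key := card_cent t ht σ hσ u h
  rw [hs, Cfsg.Agent.S0245.result hF m, hF, arith q m s hsm] at key
  have hpos : 0 < ∏ i ∈ Finset.range s, (q ^ (2 * m - i) - q ^ i) := by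
    apply Finset.prod_pos
    intro i hi
    rw [Finset.mem_range] at hi
    have hq : 1 < q := by rw [← hF]; exact Fintype.one_lt_card
    have : q ^ i < q ^ (2 * m - i) := Nat.pow_lt_pow_right hq (by omega)
    omega
  apply Nat.eq_of_mul_eq_mul_left hpos
  rw [mul_comm, key]
  ring

theorem exp_eq (m s : ℕ) (h : s ≤ m) :
    s * (s + 1) / 2 + 2 * s * (m - s) = 2 * m * s - (3 * s ^ 2 - s) / 2 := by
  obtain ⟨r, rfl⟩ : ∃ r, m = s + r := ⟨m - s, by omega⟩
  obtain ⟨T, hT⟩ := Nat.even_mul_succ_self s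
  have h0 : s ≤ s * s := Nat.le_mul_self s
  have h1 : s * (s + 1) = s * s + s := by ring
  have h2 : 2 * s * (s + r - s) = 2 * (s * r) := by
    rw [Nat.add_sub_cancel_left]; ring
  have h3 : 2 * (s + r) * s = 2 * (s * s) + 2 * (s * r) := by ring
  have h4 : 3 * s ^ 2 = 3 * (s * s) := by ring
  rw [h2, h3, h4]
  rw [h1] at hT ⊢
  generalize s * s = S at *
  generalize s * r = R at *
  omega

theorem exp_eq' (m s : ℕ) (h : s ≤ m) (h1 : 1 ≤ s) :
    s * (s + 1) / 2 + 2 * s * (m - s) + (s - 1) = 2 * m * s - (3 * s ^ 2 - 3 * s) / 2 - 1 := by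
  obtain ⟨r, rfl⟩ : ∃ r, m = s + r := ⟨m - s, by omega⟩
  obtain ⟨T, hT⟩ := Nat.even_mul_succ_self s
  have h0 : s ≤ s * s := Nat.le_mul_self s
  have h1 : s * (s + 1) = s * s + s := by ring
  have h2 : 2 * s * (s + r - s) = 2 * (s * r) := by
    rw [Nat.add_sub_cancel_left]; ring
  have h3 : 2 * (s + r) * s = 2 * (s * s) + 2 * (s * r) := by ring
  have h4 : 3 * s ^ 2 = 3 * (s * s) := by ring
  rw [h2, h3, h4]
  rw [h1] at hT ⊢
  generalize s * s = S at *
  generalize s * r = R at *
  omega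

end Cfsg.Agent.Lib.Helper42CentSp
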