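import Mathlib
import Cfsg.Agent.Lib.Helper42AutSpA
import Cfsg.Agent.Lib.Helper42CentSp
import Cfsg.Agent.S2680
import Cfsg.Agent.S2681
import Cfsg.Agent.S2682

set_option autoImplicit false
open Cfsg

/-! Automorphisms of `PSp_{2m}(F)`, characteristic two, `m ≥ 3`: transvections go to transvections
(they are the involutions with the largest centraliser).  (helper42) -/

namespace Cfsg.Agent.Lib.Helper42AutSpC

open Matrix Cfsg.Agent.Lib.Helper17Symp Cfsg.Agent.Lib.Helper17Symp2 Cfsg.Agent.Lib.Helper7Sp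
  Cfsg.Agent.Lib.Helper42AutSpA

section Arith

/-- `∏_{i<k} (q^{2(i+1)} - 1)` -/
def PP (q k : ℕ) : ℕ := ∏ i ∈ Finset.range k, (q ^ (2 * (i + 1)) - 1)

theorem PP_succ (q k : ℕ) : PP q (k + 1) = PP q k * (q ^ (2 * (k + 1)) - 1) := by
  rw [PP, Finset.prod_range_succ]; rfl

theorem PP_fin (q k : ℕ) : ∏ i : Fin k, (q ^ (2 * ((i : ℕ) + 1)) - 1) = PP q k := by
  rw [PP, Fin.prod_univ_eq_prod_range (fun i => q ^ (2 * (i + 1)) - 1) k]

theorem fac_gt (q k : ℕ) (hq : 2 ≤ q) : 1 < q ^ (2 * (k + 1)) - 1 := by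
  have h1 : q ^ 2 ≤ q ^ (2 * (k + 1)) := Nat.pow_le_pow_right (by omega) (by omega)
  have h2 : 4 ≤ q ^ 2 := by nlinarith
  omega

theorem PP_pos (q k : ℕ) (hq : 2 ≤ q) : 0 < PP q k := by
  apply Finset.prod_pos
  intro i _
  have := fac_gt q i hq
  omega

theorem PP_lt_succ (q k : ℕ) (hq : 2 ≤ q) : PP q k < PP q (k + 1) := by
  rw [PP_succ]
  have h1 := fac_gt q k hq
  have h2 := PP_pos q k hq
  nlinarith

theorem PP_strictMono (q : ℕ) (hq : 2 ≤ q) : StrictMono (PP q) :=
  strictMono_nat_of_lt_succ (fun k => PP_lt_succ q k hq)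

theorem PP_mul_le (q a b : ℕ) (hq : 2 ≤ q) : PP q a * PP q b ≤ PP q (a + b) := by
  induction a with
  | zero => simp [PP]
  | succ a ih =>
    have e : a + 1 + b = (a + b) + 1 := by omega
    rw [e, PP_succ, PP_succ]
    have h1 : q ^ (2 * (a + 1)) ≤ q ^ (2 * (a + b + 1)) := Nat.pow_le_pow_right (by omega) (by omega)
    calc PP q a * (q ^ (2 * (a + 1)) - 1) * PP q b
        = (PP q a * PP q b) * (q ^ (2 * (a + 1)) - 1) := by ring
      _ ≤ PP q (a + b) * (q ^ (2 * (a + b + 1)) - 1) := Nat.mul_le_mul ih (by omega)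

theorem PP_mul_lt (q a b : ℕ) (hq : 2 ≤ q) (hb : 1 ≤ b) :
    PP q (a + 1) * PP q b < PP q (a + 1 + b) := by
  have e : a + 1 + b = (a + b) + 1 := by omega
  rw [e, PP_succ, PP_succ]
  have h1 : q ^ (2 * (a + 1)) < q ^ (2 * (a + b + 1)) := Nat.pow_lt_pow_right (by omega) (by omega)
  have h0 := fac_gt q a hq
  have h2 := PP_mul_le q a b hq
  have h3 := PP_pos q (a + b) hq
  calc PP q a * (q ^ (2 * (a + 1)) - 1) * PP q b
      = (PP q a * PP q b) * (q ^ (2 * (a + 1)) - 1) := by ring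
    _ ≤ PP q (a + b) * (q ^ (2 * (a + 1)) - 1) := Nat.mul_le_mul_right _ h2
    _ < PP q (a + b) * (q ^ (2 * (a + b + 1)) - 1) := Nat.mul_lt_mul_of_pos_left (by omega) h3

theorem coprime_PP (q k : ℕ) (hq : 2 ≤ q) : Nat.Coprime q (PP q k) := by
  apply Nat.Coprime.prod_right
  intro i _
  have h1 : 1 ≤ q ^ (2 * (i + 1)) := Nat.one_le_pow _ _ (by omega)
  have h2 : q ∣ q ^ (2 * (i + 1)) := dvd_pow_self q (by omega)
  exact Nat.Coprime.coprime_dvd_left h2
    ((Nat.coprime_self_sub_right h1).mpr (Nat.coprime_one_right _))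

theorem cancel_pow (q N1 N2 A B : ℕ) (hA : Nat.Coprime q A) (hB : Nat.Coprime q B)
    (h : q ^ N1 * A = q ^ N2 * B) : A = B := by
  apply Nat.dvd_antisymm
  · have h1 : A ∣ q ^ N2 * B := ⟨q ^ N1, by rw [← h]; ring⟩
    exact (Nat.Coprime.pow_left N2 hA).symm.dvd_of_dvd_mul_left h1
  · have h1 : B ∣ q ^ N1 * A := ⟨q ^ N2, by rw [h]; ring⟩
    exact (Nat.Coprime.pow_left N1 hB).symm.dvd_of_dvd_mul_left h1

/-- the arithmetic core -/
theorem s_eq_one (q m s a : ℕ) (hq : 2 ≤ q) (hm : 3 ≤ m) (hs1 : 1 ≤ s) (hsm : s ≤ m)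
    (ha : a ≤ s / 2) (A B C A' B' C' : ℕ)
    (h : q ^ A * (q ^ B * PP q a) * (q ^ C * PP q (m - s))
      = q ^ A' * (q ^ B' * PP q 0) * (q ^ C' * PP q (m - 1))) : s = 1 := by
  by_contra hne
  have hs2 : 2 ≤ s := by omega
  have h1 : q ^ (A + B + C) * (PP q a * PP q (m - s)) = q ^ (A' + B' + C') * (PP q 0 * PP q (m - 1)) := by
    rw [pow_add, pow_add, pow_add, pow_add]
    linarith
  have h2 := cancel_pow q _ _ _ _ (Nat.Coprime.mul_right (coprime_PP q a hq) (coprime_PP q (m - s) hq))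
    (Nat.Coprime.mul_right (coprime_PP q 0 hq) (coprime_PP q (m - 1) hq)) h1
  have h3 : PP q 0 = 1 := rfl
  rw [h3, one_mul] at h2
  have h4 := PP_mul_le q a (m - s) hq
  rcases Nat.lt_or_ge (a + (m - s)) (m - 1) with h5 | h5
  · have := PP_strictMono q hq h5
    omega
  · have hs : s = 2 := by omega
    have ha1 : a = 1 := by omega
    subst hs ha1
    have h6 := PP_mul_lt q 0 (m - 2) hq (by omega)
    have e : 0 + 1 + (m - 2) = m - 1 := by omega
    rw [e] at h6
    simp only [zero_add] at h6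
    omega

end Arith

variable {F : Type*} [Field F] {m : ℕ}

local notation "V" => (Fin m ⊕ Fin m → F)
local notation "Sp" => Matrix.symplecticGroup (Fin m) F
local notation "Mat" => Matrix (Fin m ⊕ Fin m) (Fin m ⊕ Fin m) F
local notation "ff" => sympForm m F
local notation "π" => (QuotientGroup.mk : Matrix.symplecticGroup (Fin m) F → Cfsg.PSp m F)

theorem rank_tv {e : V} {a : F} (he : e ≠ 0) (ha : a ≠ 0) : ((tv m e a : Mat) - 1).rank = 1 := by
  have h1 : LinearMap.range ((tv m e a : Mat) - 1).mulVecLin = Submodule.span F {e} := by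
    apply le_antisymm
    · rintro _ ⟨x, rfl⟩
      rw [mulVecLin_apply, sub_mulVec, one_mulVec, tv_mulVec, add_sub_cancel_left]
      exact Submodule.smul_mem _ _ (Submodule.mem_span_singleton_self e)
    · rw [Submodule.span_singleton_le_iff_mem]
      obtain ⟨y, hy⟩ := exists_one he
      refine ⟨a⁻¹ • y, ?_⟩
      rw [mulVecLin_apply, sub_mulVec, one_mulVec, tv_mulVec, add_sub_cancel_left,
        sympForm_smul_left, hy, mul_one, mul_inv_cancel₀ ha, one_smul]
  show Module.finrank F (LinearMap.range ((tv m e a : Mat) - 1).mulVecLin) = 1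
  rw [h1, finrank_span_singleton he]

theorem eq_tv_of_rank_one (x : Sp) (h : ((x : Mat) - 1).rank = 1) :
    ∃ (v : V) (b : F), x = tv m v b := by
  have h1 : Module.finrank F (LinearMap.range ((x : Mat) - 1).mulVecLin) = 1 := h
  obtain ⟨⟨v, hv⟩, hv0, hspan⟩ := finrank_eq_one_iff'.mp h1
  have hv0' : v ≠ 0 := fun h0 => hv0 (Subtype.ext h0)
  have hx : ∀ y, ∃ ν : F, (x : Mat) *ᵥ y = y + ν • v := by
    intro y
    obtain ⟨c, hc⟩ := hspan ⟨((x : Mat) - 1).mulVecLin y, ⟨y, rfl⟩⟩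
    refine ⟨c, ?_⟩
    have h2 := congrArg Subtype.val hc
    simp only [Submodule.coe_smul, mulVecLin_apply, sub_mulVec, one_mulVec] at h2
    rw [h2]; abel
  obtain ⟨b, hb⟩ := eq_tv_of_fix_perp x hv0' (by
    intro y hy
    obtain ⟨ν, hν⟩ := hx y
    obtain ⟨z, hz⟩ := exists_one hv0'
    obtain ⟨ν', hν'⟩ := hx z
    have h3 := preserves x y z
    have hvz : ff v z = -1 := by rw [sympForm_swap, hz]
    rw [hν, hν'] at h3
    simp only [sympForm_add_left, sympForm_add_right, sympForm_smul_left, sympForm_smul_right,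
      sympForm_self, hy, hvz] at h3
    have h4 : ν = 0 := by linear_combination -h3
    rw [hν, h4, zero_smul, add_zero])
  exact ⟨v, b, hb⟩

theorem mk_injective [CharP F 2] (hm : 1 ≤ m) : Function.Injective π := by
  intro g h hgh
  rcases (mk_eq_iff hm g h).mp hgh with h1 | h1
  · exact h1
  · apply Subtype.ext
    rw [h1]
    have h2 : (2 : F) = 0 := CharP.cast_eq_zero F 2
    have : (h : Mat) + (h : Mat) = 0 := by rw [← two_smul F (h : Mat), h2, zero_smul]
    exact neg_eq_of_add_eq_zero_left this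

theorem card_centralizer_map {G : Type*} [Group G] (γ : G ≃* G) (t : G) :
    Nat.card (Subgroup.centralizer ({γ t} : Set G)) = Nat.card (Subgroup.centralizer ({t} : Set G)) := by
  apply Nat.card_congr
  refine (Equiv.subtypeEquiv γ.toEquiv ?_).symm
  intro g
  rw [Subgroup.mem_centralizer_singleton_iff, Subgroup.mem_centralizer_singleton_iff]
  show _ ↔ γ g * γ t = γ t * γ g
  rw [← map_mul, ← map_mul, γ.injective.eq_iff]

/-- In characteristic two and rank at least three automorphisms map transvections to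
transvections. -/
theorem tv_map_even [Fintype F] [CharP F 2] (hm : 3 ≤ m) (β : MulAut (Cfsg.PSp m F)) (e : V)
    (a : F) : ∃ (e' : V) (a' : F), β (π (tv m e a)) = π (tv m e' a') := by
  classical
  by_cases he : e = 0
  · subst he
    refine ⟨0, 0, ?_⟩
    rw [tv_zero_left, tv_zero_left]
    exact map_one β
  by_cases ha : a = 0
  · subst ha
    refine ⟨0, 0, ?_⟩
    rw [tv_zero_right, tv_zero_left]
    exact map_one β
  let Θ : Sp ≃* Cfsg.PSp m F := MulEquiv.ofBijective (QuotientGroup.mk' (Subgroup.center Sp))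
    ⟨mk_injective (by omega), QuotientGroup.mk'_surjective _⟩
  let γ : Sp ≃* Sp := (Θ.trans β).trans Θ.symm
  obtain ⟨t, ht⟩ : ∃ t, t = tv m e a := ⟨_, rfl⟩
  obtain ⟨x, hx⟩ : ∃ x, x = γ t := ⟨_, rfl⟩
  have hxπ : π x = β (π t) := by
    rw [hx]
    exact Θ.apply_symm_apply _
  have h2 : (2 : F) = 0 := CharP.cast_eq_zero F 2
  have ht2 : t ^ 2 = 1 := by
    rw [ht, pow_two, tv_mul, ← two_mul, h2, zero_mul, tv_zero_right]
  have hx2 : x ^ 2 = 1 := by rw [hx, ← map_pow, ht2, map_one]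
  have hx1 : x ≠ 1 := by
    intro h
    rw [hx, map_eq_one_iff γ γ.injective] at h
    exact tv_ne_one he ha (ht ▸ h)
  have hcard : Nat.card (Subgroup.centralizer ({x} : Set Sp))
      = Nat.card (Subgroup.centralizer ({t} : Set Sp)) := by
    rw [hx]; exact card_centralizer_map γ t
  have hq : 2 ≤ Fintype.card F := Fintype.one_lt_card
  have f1 := Cfsg.Agent.S2680.result rfl t ht2 (by rw [ht]; exact rank_tv he ha) odd_one
  obtain ⟨s, hs⟩ : ∃ s, ((x : Mat) - 1).rank = s := ⟨_, rfl⟩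
  have hs1 : 1 ≤ s := by
    by_contra h0
    have h0' : s = 0 := by omega
    apply hx1
    have h3 : Module.finrank F (LinearMap.range ((x : Mat) - 1).mulVecLin) = 0 := by
      rw [← h0', ← hs]; rfl
    rw [Submodule.finrank_eq_zero] at h3
    apply ext_mulVec
    intro y
    have h4 : ((x : Mat) - 1).mulVecLin y ∈ LinearMap.range ((x : Mat) - 1).mulVecLin := ⟨y, rfl⟩
    rw [h3, Submodule.mem_bot, mulVecLin_apply, sub_mulVec, one_mulVec, sub_eq_zero] at h4
    rw [h4]
    exact (one_mulVec y).symm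
  have hsm : s ≤ m := by
    rw [← hs]
    exact Cfsg.Agent.Lib.Helper42CentSp.rank_le x (by rw [← pow_two]; exact hx2)
  have key : s = 1 := by
    rcases Nat.even_or_odd s with hev | hodd
    · by_cases halt : ∀ v : V, ff v ((x : Mat) *ᵥ v) = 0
      · have f2 := Cfsg.Agent.S2681.result rfl x hx2 hx1 hs hev halt
        rw [hcard, f1] at f2
        simp only [PP_fin] at f2
        exact s_eq_one _ m s (s / 2) hq hm hs1 hsm le_rfl _ _ _ _ _ _ f2.symm
      · push Not at halt
        have f2 := Cfsg.Agent.S2682.result rfl x hx2 hs hev halt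
        rw [hcard, f1] at f2
        simp only [PP_fin] at f2
        exact s_eq_one _ m s ((s - 2) / 2) hq hm hs1 hsm (by omega) _ _ _ _ _ _ f2.symm
    · have f2 := Cfsg.Agent.S2680.result rfl x hx2 hs hodd
      rw [hcard, f1] at f2
      simp only [PP_fin] at f2
      exact s_eq_one _ m s ((s - 1) / 2) hq hm hs1 hsm (by omega) _ _ _ _ _ _ f2.symm
  obtain ⟨v, b, hvb⟩ := eq_tv_of_rank_one x (by rw [hs, key])
  exact ⟨v, b, by rw [← ht, ← hxπ, hvb]⟩

end Cfsg.Agent.Lib.Helper42AutSpC
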