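import Mathlib
import Cfsg.Agent.Lib.Helper42AutSpA
import Cfsg.Agent.Lib.Helper50Std

set_option autoImplicit false
open Cfsg

/-! Automorphisms of `PSp_{2m}(F)`: root groups, the `SL₂`-analysis on a hyperbolic plane. (helper42) -/

namespace Cfsg.Agent.Lib.Helper42AutSpD

open Matrix Cfsg.Agent.Lib.Helper17Symp Cfsg.Agent.Lib.Helper17Symp2 Cfsg.Agent.Lib.Helper7Sp
  Cfsg.Agent.Lib.Helper42AutSpA

variable {F : Type*} [Field F] {m : ℕ}

local notation "V" => (Fin m ⊕ Fin m → F)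
local notation "Sp" => Matrix.symplecticGroup (Fin m) F
local notation "Mat" => Matrix (Fin m ⊕ Fin m) (Fin m ⊕ Fin m) F
local notation "ff" => sympForm m F
local notation "π" => (QuotientGroup.mk : Matrix.symplecticGroup (Fin m) F → Cfsg.PSp m F)

/-- `β` maps transvections to transvections. -/
def TT (β : MulAut (Cfsg.PSp m F)) : Prop :=
  ∀ (e : V) (a : F), ∃ (e' : V) (a' : F), β (π (tv m e a)) = π (tv m e' a')

/-- `β` maps the root group of `v` to that of `v'` via `φ`. -/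
def R (β : MulAut (Cfsg.PSp m F)) (v v' : V) (φ : F → F) : Prop :=
  ∀ a, β (π (tv m v a)) = π (tv m v' (φ a))

theorem mk_mul (g h : Sp) : π (g * h) = π g * π h := rfl

theorem mk_inv (g : Sp) : π g⁻¹ = (π g)⁻¹ := rfl

variable {β : MulAut (Cfsg.PSp m F)}

theorem ne_of_mk_ne_one {v : V} {a : F} (h : π (tv m v a) ≠ 1) : v ≠ 0 ∧ a ≠ 0 := by
  constructor
  · rintro rfl
    apply h
    rw [tv_zero_left]; rfl
  · rintro rfl
    apply h
    rw [tv_zero_right]; rfl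

theorem exists_root (hm : 2 ≤ m) (hT : TT β) {v : V} (hv : v ≠ 0) :
    ∃ v' : V, v' ≠ 0 ∧ ∃ φ : F → F, R β v v' φ := by
  have himg : ∀ a : F, a ≠ 0 → ∀ (w : V) (b : F), β (π (tv m v a)) = π (tv m w b) → w ≠ 0 ∧ b ≠ 0 := by
    intro a ha w b h
    apply ne_of_mk_ne_one
    rw [← h]
    intro h1
    rw [map_eq_one_iff β β.injective] at h1
    exact mk_tv_ne_one hm hv ha h1
  obtain ⟨v', a1, h1⟩ := hT v 1
  obtain ⟨hv', ha1⟩ := himg 1 one_ne_zero v' a1 h1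
  refine ⟨v', hv', ?_⟩
  have key : ∀ a, ∃ a', β (π (tv m v a)) = π (tv m v' a') := by
    intro a
    by_cases ha : a = 0
    · subst ha
      refine ⟨0, ?_⟩
      rw [tv_zero_right, tv_zero_right]
      exact map_one β
    obtain ⟨w, b, h2⟩ := hT v a
    obtain ⟨hw, hb⟩ := himg a ha w b h2
    by_cases h1a : 1 + a = 0
    · refine ⟨-a1, ?_⟩
      have : a = -1 := by linear_combination h1a
      rw [this, ← tv_inv, ← tv_inv, mk_inv, mk_inv, map_inv, h1]
    · obtain ⟨u, c, h3⟩ := hT v (1 + a)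
      rw [← tv_mul, mk_mul, map_mul, h1, h2] at h3
      obtain ⟨k, hk⟩ := mk_par_of_mul_eq hm hv' hw ha1 hb h3
      refine ⟨k ^ 2 * b, ?_⟩
      rw [h2, hk, tv_smul]
  choose φ hφ using key
  exact ⟨φ, hφ⟩


variable {v v' w w' : Fin m ⊕ Fin m → F} {φ ψ : F → F}

theorem R.add (hm : 2 ≤ m) (h : R β v v' φ) (hv' : v' ≠ 0) (a b : F) : φ (a + b) = φ a + φ b := by
  apply tv_inj hv'
  apply mk_tv_eq hm
  rw [← h, ← tv_mul, ← tv_mul, mk_mul, mk_mul, map_mul, h, h]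

theorem R.zero (hm : 2 ≤ m) (h : R β v v' φ) (hv' : v' ≠ 0) : φ 0 = 0 := by
  have := h.add hm hv' 0 0
  rw [add_zero] at this
  exact left_eq_add.mp this

theorem R.neg (hm : 2 ≤ m) (h : R β v v' φ) (hv' : v' ≠ 0) (a : F) : φ (-a) = - φ a := by
  have := h.add hm hv' a (-a)
  rw [add_neg_cancel, h.zero hm hv'] at this
  exact (neg_eq_of_add_eq_zero_right this.symm).symm

theorem R.sub (hm : 2 ≤ m) (h : R β v v' φ) (hv' : v' ≠ 0) (a b : F) : φ (a - b) = φ a - φ b := by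
  rw [sub_eq_add_neg, h.add hm hv', h.neg hm hv', sub_eq_add_neg]

theorem R.inj (hm : 2 ≤ m) (h : R β v v' φ) (hv : v ≠ 0) : Function.Injective φ := by
  intro a b hab
  apply tv_inj hv
  apply mk_tv_eq hm
  apply β.injective
  rw [h, h, hab]

theorem R.ne_zero (hm : 2 ≤ m) (h : R β v v' φ) (hv : v ≠ 0) (hv' : v' ≠ 0) {a : F} (ha : a ≠ 0) :
    φ a ≠ 0 := by
  intro h0
  rw [← h.zero hm hv'] at h0
  exact ha (h.inj hm hv h0)

theorem R.conj (h : R β v v' φ) {g g' : Sp} (hg : β (π g) = π g') :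
    R β ((g : Mat) *ᵥ v) ((g' : Mat) *ᵥ v') φ := by
  intro a
  rw [← conj_tv, ← conj_tv, mk_mul, mk_mul, mk_mul, mk_mul, mk_inv, mk_inv, map_mul, map_mul,
    map_inv, hg, h]

theorem R.rescale (h : R β v v' φ) {k : F} (hk : k ≠ 0) :
    R β v (k • v') (fun a => (k⁻¹) ^ 2 * φ a) := by
  intro a
  rw [h, tv_smul]
  congr 2
  field_simp

theorem R.smul_left (h : R β v v' φ) (k : F) : R β (k • v) v' (fun a => φ (k ^ 2 * a)) := by
  intro a
  rw [tv_smul, h]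

theorem R.unique (hm : 2 ≤ m) (h : R β v v' φ) (h' : R β v w' ψ) (a : F) :
    tv m v' (φ a) = tv m w' (ψ a) := by
  apply mk_tv_eq hm
  rw [← h, ← h']

theorem R.orth (hm : 2 ≤ m) (h : R β v v' φ) (h' : R β w w' ψ) (hv : v ≠ 0) (hv' : v' ≠ 0)
    (hw : w ≠ 0) (hw' : w' ≠ 0) : ff v w = 0 ↔ ff v' w' = 0 := by
  rw [← mk_commute_iff hm (one_ne_zero) (one_ne_zero) (v := v) (w := w),
    ← mk_commute_iff hm (h.ne_zero hm hv hv' one_ne_zero) (h'.ne_zero hm hw hw' one_ne_zero)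
      (v := v') (w := w'), ← h, ← h', ← map_mul, ← map_mul, β.injective.eq_iff]


/-! ### hyperbolic pairs -/

/-- `x(A) y(C) x(A)` -/
def WW (e f : V) (A C : F) : Sp := tv m e A * tv m f C * tv m e A

theorem WW_f {e f : V} (h : ff f e = 1) (A C : F) :
    (WW e f A C : Mat) *ᵥ f = (1 - A * C) • f + (A * (2 - A * C)) • e := by
  have h' : ff e f = -1 := by rw [sympForm_swap, h]
  rw [WW, coe_mul_mulVec, coe_mul_mulVec, tv_mulVec, tv_mulVec, tv_mulVec]
  simp only [sympForm_add_left, sympForm_smul_left, sympForm_self, h, h']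
  module

theorem WW_e {e f : V} (h : ff f e = 1) (A C : F) :
    (WW e f A C : Mat) *ᵥ e = (1 - A * C) • e - C • f := by
  have h' : ff e f = -1 := by rw [sympForm_swap, h]
  rw [WW, coe_mul_mulVec, coe_mul_mulVec, tv_mulVec, tv_mulVec, tv_mulVec]
  simp only [sympForm_add_left, sympForm_smul_left, sympForm_self, h, h']
  module

theorem WW_perp {e f z : V} (h1 : ff z e = 0) (h2 : ff z f = 0) (A C : F) :
    (WW e f A C : Mat) *ᵥ z = z := by
  rw [WW, coe_mul_mulVec, coe_mul_mulVec, tv_fix A h1, tv_fix C h2, tv_fix A h1]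

theorem map_WW {e f E Fv : V} {φ ψ : F → F} (hφ : R β e E φ) (hψ : R β f Fv ψ) (A C : F) :
    β (π (WW e f A C)) = π (WW E Fv (φ A) (ψ C)) := by
  rw [WW, WW, mk_mul, mk_mul, mk_mul, mk_mul, map_mul, map_mul, hφ, hψ]

theorem ne_zero_of_ff {u v : V} (h : ff u v = 1) : u ≠ 0 ∧ v ≠ 0 := by
  constructor
  · rintro rfl
    rw [sympForm_zero_left] at h
    exact zero_ne_one h
  · rintro rfl
    rw [sympForm_zero_right] at h
    exact zero_ne_one h

theorem sl2_rel (hm : 2 ≤ m) {e f E Fv : V} (h1 : ff f e = 1) (h2 : ff Fv E = 1) {φ ψ : F → F}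
    (hφ : R β e E φ) (hψ : R β f Fv ψ) {a : F} (ha : a ≠ 0) :
    φ a * ψ a⁻¹ = 1 ∧ ∀ t, φ (a ^ 2 * t) = φ a ^ 2 * ψ t := by
  obtain ⟨hf, he⟩ := ne_zero_of_ff h1
  obtain ⟨hFv, hE⟩ := ne_zero_of_ff h2
  have hc := hψ.conj (map_WW hφ hψ a a⁻¹)
  rw [WW_f h1, WW_f h2, mul_inv_cancel₀ ha, sub_self, zero_smul, zero_add] at hc
  have e1 : a * (2 - 1) = a := by ring
  rw [e1] at hc
  have hu := fun t => R.unique hm hc (hφ.smul_left a) t
  -- at t = 1 : parallel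
  have hψ1 : ψ 1 ≠ 0 := hψ.ne_zero hm hf hFv one_ne_zero
  obtain ⟨A, hA⟩ : ∃ A, A = φ a := ⟨_, rfl⟩
  obtain ⟨C, hC⟩ : ∃ C, C = ψ a⁻¹ := ⟨_, rfl⟩
  rw [← hA, ← hC] at hu ⊢
  have hA0 : A ≠ 0 := by rw [hA]; exact hφ.ne_zero hm he hE ha
  have hne : (1 - A * C) • Fv + (A * (2 - A * C)) • E ≠ 0 := by
    intro h0
    have h3 := congrArg (fun z => ff z E) h0
    have h4 := congrArg (fun z => ff Fv z) h0
    simp only [sympForm_add_left, sympForm_smul_left, sympForm_self, h2, sympForm_zero_left,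
      sympForm_add_right, sympForm_smul_right, sympForm_zero_right] at h3 h4
    have h5 : A * C = 1 := by linear_combination -h3
    rw [h5] at h4
    apply hA0
    linear_combination h4
  obtain ⟨c, hc'⟩ := tv_par hne hψ1 (hu 1)
  have h3 := congrArg (fun z => ff z E) hc'
  simp only [sympForm_add_left, sympForm_smul_left, sympForm_self, h2] at h3
  have hAC : A * C = 1 := by linear_combination -h3
  refine ⟨hAC, ?_⟩
  intro t
  have h4 := hu t
  rw [hAC, sub_self, zero_smul, zero_add] at h4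
  have e2 : A * (2 - 1) = A := by ring
  rw [e2, tv_smul] at h4
  exact (tv_inj hE h4).symm

/-- The field automorphism attached to a hyperbolic pair. -/
theorem exists_sigma [Finite F] (hm : 2 ≤ m) {e f E Fv : V} (h1 : ff f e = 1) (h2 : ff Fv E = 1)
    {φ ψ : F → F} (hφ : R β e E φ) (hψ : R β f Fv ψ) :
    ∃ (l : F) (σ : F ≃+* F), l ≠ 0 ∧ (∀ a, φ a = l * σ a) ∧ (∀ a, ψ a = l⁻¹ * σ a) := by
  obtain ⟨hf, he⟩ := ne_zero_of_ff h1
  obtain ⟨hFv, hE⟩ := ne_zero_of_ff h2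
  obtain ⟨l, hl⟩ : ∃ l, l = φ 1 := ⟨_, rfl⟩
  have hl0 : l ≠ 0 := by rw [hl]; exact hφ.ne_zero hm he hE one_ne_zero
  have r1 : ∀ t, φ t = l ^ 2 * ψ t := by
    intro t
    have := (sl2_rel hm h1 h2 hφ hψ one_ne_zero).2 t
    rwa [one_pow, one_mul, ← hl] at this
  have hadd : ∀ a b, l⁻¹ * φ (a + b) = l⁻¹ * φ a + l⁻¹ * φ b := by
    intro a b
    rw [hφ.add hm hE, mul_add]
  have hone : l⁻¹ * φ 1 = 1 := by rw [← hl, inv_mul_cancel₀ hl0]
  have hsq : ∀ a s, l⁻¹ * φ (a ^ 2 * s) = (l⁻¹ * φ a) ^ 2 * (l⁻¹ * φ s) := by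
    intro a s
    by_cases ha : a = 0
    · subst ha
      rw [zero_pow two_ne_zero, zero_mul, hφ.zero hm hE]
      ring
    · rw [(sl2_rel hm h1 h2 hφ hψ ha).2 s, r1 s]
      field_simp
  have hmul := Cfsg.Agent.Lib.Helper50Std.mul_of_sq (fun a => l⁻¹ * φ a) hadd hone hsq
  let σ0 : F →+* F :=
    { toFun := fun a => l⁻¹ * φ a
      map_one' := hone
      map_mul' := hmul
      map_zero' := by
        show l⁻¹ * φ 0 = 0
        rw [hφ.zero hm hE, mul_zero]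
      map_add' := hadd }
  have hinj : Function.Injective σ0 := σ0.injective
  let σ : F ≃+* F := RingEquiv.ofBijective σ0 ⟨hinj, Finite.injective_iff_surjective.mp hinj⟩
  refine ⟨l, σ, hl0, ?_, ?_⟩
  · intro a
    show φ a = l * (l⁻¹ * φ a)
    rw [← mul_assoc, mul_inv_cancel₀ hl0, one_mul]
  · intro a
    show ψ a = l⁻¹ * (l⁻¹ * φ a)
    rw [r1 a]
    field_simp

end Cfsg.Agent.Lib.Helper42AutSpD
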