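import Mathlib
import Cfsg.Agent.Lib.Helper42AutSpD

set_option autoImplicit false
open Cfsg

/-! Automorphisms of `PSp_{2m}(F)`: tori and linking two hyperbolic planes. (helper42) -/

namespace Cfsg.Agent.Lib.Helper42AutSpE

open Matrix Cfsg.Agent.Lib.Helper17Symp Cfsg.Agent.Lib.Helper17Symp2 Cfsg.Agent.Lib.Helper7Sp
  Cfsg.Agent.Lib.Helper42AutSpA Cfsg.Agent.Lib.Helper42AutSpD

variable {F : Type*} [Field F] {m : ℕ}

local notation "V" => (Fin m ⊕ Fin m → F)
local notation "Sp" => Matrix.symplecticGroup (Fin m) F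
local notation "Mat" => Matrix (Fin m ⊕ Fin m) (Fin m ⊕ Fin m) F
local notation "ff" => sympForm m F
local notation "π" => (QuotientGroup.mk : Matrix.symplecticGroup (Fin m) F → Cfsg.PSp m F)

variable {β : MulAut (Cfsg.PSp m F)}

theorem torus {e f E Fv z Z : V} (h1 : ff f e = 1) (h2 : ff Fv E = 1)
    (hz1 : ff z e = 0) (hz2 : ff z f = 0) (hZ1 : ff Z E = 0) (hZ2 : ff Z Fv = 0)
    {φ ψ χ : F → F} (hφ : R β e E φ) (hψ : R β f Fv ψ) {l : F} {σ : F ≃+* F} (hl : l ≠ 0)
    (hφσ : ∀ a, φ a = l * σ a) (hψσ : ∀ a, ψ a = l⁻¹ * σ a) (hχ : R β (e + z) (E + Z) χ)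
    {c : F} (hc : c ≠ 0) : R β (c • e + z) (σ c • E + Z) χ := by
  have hg : β (π (WW e f c c⁻¹ * WW e f (-1) (-1)))
      = π (WW E Fv (φ c) (ψ c⁻¹) * WW E Fv (φ (-1)) (ψ (-1))) := by
    rw [mk_mul, map_mul, map_WW hφ hψ, map_WW hφ hψ, ← mk_mul]
  have h3 := hχ.conj hg
  have hσc : σ c ≠ 0 := by
    intro h0
    exact hc ((map_eq_zero_iff σ σ.injective).mp h0)
  have e1 : ((WW e f c c⁻¹ * WW e f (-1) (-1) : Sp) : Mat) *ᵥ (e + z) = c • e + z := by
    rw [coe_mul_mulVec, mulVec_add, WW_e h1, WW_perp hz1 hz2, mulVec_add, WW_perp hz1 hz2,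
      mulVec_sub, mulVec_smul, mulVec_smul, WW_f h1, WW_e h1, mul_inv_cancel₀ hc]
    module
  have e2 : ((WW E Fv (φ c) (ψ c⁻¹) * WW E Fv (φ (-1)) (ψ (-1)) : Sp) : Mat) *ᵥ (E + Z)
      = σ c • E + Z := by
    have a1 : φ c * ψ c⁻¹ = 1 := by
      rw [hφσ, hψσ, map_inv₀]
      field_simp
    have a2 : φ (-1) * ψ (-1) = 1 := by
      rw [hφσ, hψσ, map_neg, map_one]
      field_simp
    have s1 : (WW E Fv (φ (-1)) (ψ (-1)) : Mat) *ᵥ E = l⁻¹ • Fv := by
      rw [WW_e h2, a2, hψσ (-1), map_neg, map_one]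
      module
    have s2 : (WW E Fv (φ c) (ψ c⁻¹) : Mat) *ᵥ Fv = (l * σ c) • E := by
      rw [WW_f h2, a1, hφσ c]
      module
    rw [coe_mul_mulVec, mulVec_add, s1, WW_perp hZ1 hZ2, mulVec_add, WW_perp hZ1 hZ2,
      mulVec_smul, s2, smul_smul, inv_mul_cancel_left₀ hl]
  rw [e1, e2] at h3
  exact h3

/-- two mutually orthogonal hyperbolic pairs -/
structure Hyp2 (e f e' f' : Fin m ⊕ Fin m → F) : Prop where
  h1 : ff f e = 1
  h2 : ff f' e' = 1
  ee : ff e e' = 0
  ef : ff e f' = 0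
  fe : ff f e' = 0
  ff' : ff f f' = 0

theorem Hyp2.symm {e f e' f' : V} (h : Hyp2 e f e' f') : Hyp2 e' f' e f where
  h1 := h.h2
  h2 := h.h1
  ee := ff_zero_symm h.ee
  ef := ff_zero_symm h.fe
  fe := ff_zero_symm h.ef
  ff' := ff_zero_symm h.ff'

theorem identity {e e' : V} (h : ff e e' = 0) (c a : F) :
    tv m (e + e') (c * a) * tv m (c • e + e') (-a)
      = tv m e (c * (1 - c) * a) * tv m e' ((c - 1) * a) := by
  have h' := ff_zero_symm h
  apply ext_mulVec
  intro x
  rw [coe_mul_mulVec, coe_mul_mulVec, tv_mulVec, tv_mulVec, tv_mulVec, tv_mulVec]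
  simp only [sympForm_add_left, sympForm_add_right, sympForm_smul_left, sympForm_smul_right,
    sympForm_self, h, h']
  module

theorem link [Finite F] (hm : 2 ≤ m) {e f e' f' E Fv E' Fv' : V} (H : Hyp2 e f e' f')
    (K : Hyp2 E Fv E' Fv') {φ ψ φ' ψ' χ : F → F} (hφ : R β e E φ) (hψ : R β f Fv ψ)
    (hφ' : R β e' E' φ') (hψ' : R β f' Fv' ψ') (hχ : R β (e + e') (E + E') χ) :
    (∀ a, φ' a = φ a) ∧ (∀ a, χ a = φ a) := by
  obtain ⟨hf, he⟩ := ne_zero_of_ff H.h1
  obtain ⟨hFv, hE⟩ := ne_zero_of_ff K.h1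
  obtain ⟨hf', he'⟩ := ne_zero_of_ff H.h2
  obtain ⟨hFv', hE'⟩ := ne_zero_of_ff K.h2
  have hu : e + e' ≠ 0 := by
    intro h0
    have := congrArg (fun z => ff f z) h0
    simp only [sympForm_add_right, H.h1, H.fe, sympForm_zero_right] at this
    exact one_ne_zero (by linear_combination this)
  have hU : E + E' ≠ 0 := by
    intro h0
    have := congrArg (fun z => ff Fv z) h0
    simp only [sympForm_add_right, K.h1, K.fe, sympForm_zero_right] at this
    exact one_ne_zero (by linear_combination this)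
  by_cases hq : ∃ c : F, c ≠ 0 ∧ c ≠ 1
  · obtain ⟨c, hc0, hc1⟩ := hq
    obtain ⟨l, σ, hl, hφσ, hψσ⟩ := exists_sigma hm H.h1 K.h1 hφ hψ
    obtain ⟨l', σ', hl', hφσ', hψσ'⟩ := exists_sigma hm H.h2 K.h2 hφ' hψ'
    have T1 : ∀ c : F, c ≠ 0 → R β (c • e + e') (σ c • E + E') χ := fun c hc =>
      torus H.h1 K.h1 (ff_zero_symm H.ee) (ff_zero_symm H.fe) (ff_zero_symm K.ee)
        (ff_zero_symm K.fe) hφ hψ hl hφσ hψσ hχ hc
    have hχ' : R β (e' + e) (E' + E) χ := by rw [add_comm e' e, add_comm E' E]; exact hχ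
    have T2 : ∀ c : F, c ≠ 0 → R β (c • e' + e) (σ' c • E' + E) χ := fun c hc =>
      torus H.h2 K.h2 H.ee H.ef K.ee K.ef hφ' hψ' hl' hφσ' hψσ' hχ' hc
    have hσ : ∀ c : F, σ' c = σ c := by
      intro c
      by_cases hc : c = 0
      · rw [hc, map_zero, map_zero]
      have t2 := (T2 c⁻¹ (inv_ne_zero hc)).smul_left c
      have e1 : c • (c⁻¹ • e' + e) = c • e + e' := by
        rw [smul_add, smul_smul, mul_inv_cancel₀ hc, one_smul, add_comm]
      rw [e1] at t2
      have h3 := R.unique hm (T1 c hc) t2 1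
      have hne : σ c • E + E' ≠ 0 := by
        intro h0
        have := congrArg (fun z => ff Fv' z) h0
        simp only [sympForm_add_right, sympForm_smul_right, K.h2, ff_zero_symm K.ef,
          sympForm_zero_right] at this
        exact one_ne_zero (by linear_combination this)
      obtain ⟨k, hk⟩ := tv_par hne (hχ.ne_zero hm hu hU one_ne_zero) h3
      have p1 := congrArg (fun z => ff Fv z) hk
      have p2 := congrArg (fun z => ff Fv' z) hk
      simp only [sympForm_add_right, sympForm_smul_right, K.h1, K.h2, K.fe, ff_zero_symm K.ef]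
        at p1 p2
      have hσ'c : σ' c ≠ 0 := fun h0 => hc ((map_eq_zero_iff σ' σ'.injective).mp h0)
      rw [map_inv₀] at p2
      have p3 : k = σ c := by linear_combination -p1
      rw [p3] at p2
      field_simp at p2
      linear_combination p2
    have hσc0 : σ c ≠ 0 := fun h0 => hc0 ((map_eq_zero_iff σ σ.injective).mp h0)
    have hσc1 : σ c - 1 ≠ 0 := by
      intro h0
      apply hc1
      apply σ.injective
      rw [map_one]
      linear_combination h0
    have main : ∀ a, χ (c * a) = σ c * χ a ∧ -(χ a) * σ c ^ 2 + χ (c * a) = φ (c * (1 - c) * a) ∧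
        -(χ a) + χ (c * a) = φ' ((c - 1) * a) := by
      intro a
      have h3 := congrArg (fun g => β (π g)) (identity H.ee c a)
      simp only [mk_mul, map_mul] at h3
      rw [hχ, T1 c hc0, hφ, hφ', ← mk_mul, ← mk_mul, hχ.neg hm hU] at h3
      have fE1 : ff E (E + E') = 0 := by
        simp only [sympForm_add_right, sympForm_self, K.ee]
        ring
      have fE2 : ff E (σ c • E + E') = 0 := by
        simp only [sympForm_add_right, sympForm_smul_right, sympForm_self, K.ee]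
        ring
      have h4 := eq_of_mk_eq (by omega) h3 hE (by
        rw [coe_mul_mulVec, coe_mul_mulVec, tv_fix _ fE2, tv_fix _ fE1, tv_fix _ K.ee,
          tv_fix _ (sympForm_self m E)])
      have q1 := congrArg (fun g : Sp => (g : Mat) *ᵥ Fv) h4
      have q2 := congrArg (fun g : Sp => (g : Mat) *ᵥ Fv') h4
      simp only [coe_mul_mulVec, tv_mulVec, sympForm_add_left, sympForm_add_right,
        sympForm_smul_left, sympForm_smul_right, sympForm_self, K.h1, K.h2, K.fe, K.ee,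
        ff_zero_symm K.ee, ff_zero_symm K.ef] at q1 q2
      have r1 := congrArg (fun z => ff Fv' z) q1
      have r2 := congrArg (fun z => ff Fv z) q1
      have r3 := congrArg (fun z => ff Fv' z) q2
      simp only [sympForm_add_right, sympForm_smul_right, sympForm_self, K.h1, K.h2, K.fe,
        ff_zero_symm K.ef, ff_zero_symm K.ff', K.ff'] at r1 r2 r3
      refine ⟨?_, ?_, ?_⟩
      · linear_combination r1
      · linear_combination r2
      · linear_combination r3
    have hχφ' : ∀ a, χ a = φ' a := by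
      intro a
      obtain ⟨m1, -, m3⟩ := main a
      rw [m1, hφσ', map_mul, hσ, hσ, map_sub, map_one] at m3
      have : (σ c - 1) * χ a = (σ c - 1) * (l' * σ a) := by linear_combination m3
      rw [hφσ', hσ]
      exact mul_left_cancel₀ hσc1 this
    have hχφ : ∀ a, χ a = φ a := by
      intro a
      obtain ⟨m1, m2, -⟩ := main a
      rw [m1, hφσ, map_mul, map_mul, map_sub, map_one] at m2
      have : (σ c * (σ c - 1)) * χ a = (σ c * (σ c - 1)) * (l * σ a) := by linear_combination -m2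
      rw [hφσ]
      exact mul_left_cancel₀ (mul_ne_zero hσc0 hσc1) this
    exact ⟨fun a => by rw [← hχφ', hχφ], hχφ⟩
  · push Not at hq
    have h01 : ∀ x : F, x ≠ 0 → x = 1 := hq
    have hall : ∀ (θ : F → F), θ 0 = 0 → θ 1 ≠ 0 → ∀ a, θ a = a := by
      intro θ t0 t1 a
      by_cases ha : a = 0
      · rw [ha, t0]
      · rw [h01 a ha, h01 _ t1]
    have a1 := hall φ (hφ.zero hm hE) (hφ.ne_zero hm he hE one_ne_zero)
    have a2 := hall φ' (hφ'.zero hm hE') (hφ'.ne_zero hm he' hE' one_ne_zero)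
    have a3 := hall χ (hχ.zero hm hU) (hχ.ne_zero hm hu hU one_ne_zero)
    exact ⟨fun a => by rw [a1, a2], fun a => by rw [a1, a3]⟩

end Cfsg.Agent.Lib.Helper42AutSpE
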