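import Mathlib
import Cfsg.Agent.Lib.Helper42AutSpA
import Cfsg.Agent.S0765

set_option autoImplicit false
open Cfsg

/-! Automorphisms of `PSp_{2m}(F)`: a small generating set of transvections. (helper42) -/

namespace Cfsg.Agent.Lib.Helper42AutSpF

open Matrix Cfsg.Agent.Lib.Helper17Symp Cfsg.Agent.Lib.Helper17Symp2 Cfsg.Agent.Lib.Helper7Sp
  Cfsg.Agent.Lib.Helper42AutSpA

variable {F : Type*} [Field F] {m : ℕ}

local notation "V" => (Fin m ⊕ Fin m → F)
local notation "Sp" => Matrix.symplecticGroup (Fin m) F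
local notation "Mat" => Matrix (Fin m ⊕ Fin m) (Fin m ⊕ Fin m) F
local notation "ff" => sympForm m F

/-- closure properties of the set of centres of the transvection groups in a subgroup -/
structure Cl (C : Set (Fin m ⊕ Fin m → F)) : Prop where
  zero : (0 : Fin m ⊕ Fin m → F) ∈ C
  smul : ∀ (a : F) (v : Fin m ⊕ Fin m → F), v ∈ C → a • v ∈ C
  add : ∀ a b : Fin m ⊕ Fin m → F, a ∈ C → b ∈ C → ff a b ≠ 0 → a + b ∈ C

theorem both {X : Submodule F V} {x1 y1 : V} (h1 : ∃ z ∈ X, ff x1 z ≠ 0)
    (h2 : ∃ z ∈ X, ff z y1 ≠ 0) : ∃ z ∈ X, ff x1 z ≠ 0 ∧ ff z y1 ≠ 0 := by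
  obtain ⟨z, hz, hz1⟩ := h1
  obtain ⟨z', hz', hz2⟩ := h2
  by_cases a : ff z y1 = 0
  · by_cases b : ff x1 z' = 0
    · refine ⟨z + z', X.add_mem hz hz', ?_, ?_⟩
      · rw [sympForm_add_right, b, add_zero]; exact hz1
      · rw [sympForm_add_left, a, zero_add]; exact hz2
    · exact ⟨z', hz', b, hz2⟩
  · exact ⟨z, hz, hz1, a⟩

/-- nondegeneracy on a subspace -/
def nd (X : Submodule F V) : Prop := ∀ x ∈ X, (∀ y ∈ X, ff x y = 0) → x = 0

theorem nd_exists {X : Submodule F V} (hX : nd X) {x : V} (hx : x ∈ X) (hx0 : x ≠ 0) :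
    ∃ y ∈ X, ff x y ≠ 0 := by
  by_contra hcon
  push Not at hcon
  exact hx0 (hX x hx hcon)

theorem nd_exists' {X : Submodule F V} (hX : nd X) {x : V} (hx : x ∈ X) (hx0 : x ≠ 0) :
    ∃ y ∈ X, ff y x ≠ 0 := by
  obtain ⟨y, hy, hxy⟩ := nd_exists hX hx hx0
  exact ⟨y, hy, fun h => hxy (ff_zero_symm h)⟩

variable {C : Set (Fin m ⊕ Fin m → F)}

theorem Cl.replace (hC : Cl C) {X : Submodule F V} (hXc : ∀ x ∈ X, x ∈ C) (hX : nd X)
    {x1 y1 r : V} (hx1 : x1 ∈ X) (hx10 : x1 ≠ 0) (hy1 : y1 ∈ X) (hy10 : y1 ≠ 0)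
    (hr : ∀ x ∈ X, ff r x = 0) (h : x1 + r ∈ C) : y1 + r ∈ C := by
  obtain ⟨z, hz, hz1, hz2⟩ := both (nd_exists hX hx1 hx10) (nd_exists' hX hy1 hy10)
  have h1 : (x1 + r) + (z - x1) ∈ C := by
    refine hC.add _ _ h (hXc _ (X.sub_mem hz hx1)) ?_
    rw [sub_eq_add_neg, ← neg_one_smul F x1]
    simp only [sympForm_add_left, sympForm_add_right, sympForm_smul_right, sympForm_self,
      hr z hz, hr x1 hx1]
    simpa using hz1
  have h2 : (x1 + r) + (z - x1) = z + r := by abel
  rw [h2] at h1
  have h3 : (z + r) + (y1 - z) ∈ C := by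
    refine hC.add _ _ h1 (hXc _ (X.sub_mem hy1 hz)) ?_
    rw [sub_eq_add_neg, ← neg_one_smul F z]
    simp only [sympForm_add_left, sympForm_add_right, sympForm_smul_right, sympForm_self,
      hr z hz, hr y1 hy1]
    simpa using hz2
  have h4 : (z + r) + (y1 - z) = y1 + r := by abel
  rw [h4] at h3
  exact h3

theorem Cl.merge (hC : Cl C) {X Y : Submodule F V} (hXc : ∀ x ∈ X, x ∈ C) (hYc : ∀ y ∈ Y, y ∈ C)
    (hX : nd X) (hY : nd Y) (hXY : ∀ x ∈ X, ∀ y ∈ Y, ff x y = 0)
    {x y : V} (hx : x ∈ X) (hx0 : x ≠ 0) (hy : y ∈ Y) (hy0 : y ≠ 0) (hxy : x + y ∈ C) :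
    ∀ x' ∈ X, ∀ y' ∈ Y, x' + y' ∈ C := by
  intro x' hx' y' hy'
  by_cases h1 : x' = 0
  · subst h1
    simpa using hYc y' hy'
  by_cases h2 : y' = 0
  · subst h2
    simpa using hXc x' hx'
  have h3 : x' + y ∈ C :=
    hC.replace hXc hX hx hx0 hx' h1 (fun a ha => ff_zero_symm (hXY a ha y hy)) hxy
  rw [add_comm] at h3 ⊢
  exact hC.replace hYc hY hy hy0 hy' h2 (fun a ha => hXY x' hx' a ha) h3

/-- the coordinate subspace on the index set `S` -/
def XS (F : Type*) [Field F] {m : ℕ} (S : Finset (Fin m)) : Submodule F (Fin m ⊕ Fin m → F) where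
  carrier := {v | ∀ i, i ∉ S → v (Sum.inl i) = 0 ∧ v (Sum.inr i) = 0}
  add_mem' := by
    intro a b ha hb i hi
    simp [(ha i hi).1, (ha i hi).2, (hb i hi).1, (hb i hi).2]
  zero_mem' := by intro i _; simp
  smul_mem' := by
    intro c a ha i hi
    simp [(ha i hi).1, (ha i hi).2]

theorem inl_mem_XS {S : Finset (Fin m)} {i : Fin m} (hi : i ∈ S) :
    (Pi.single (Sum.inl i) 1 : V) ∈ XS F S := by
  intro j hj
  have : j ≠ i := fun h => hj (h ▸ hi)
  simp [Pi.single_apply, this]

theorem inr_mem_XS {S : Finset (Fin m)} {i : Fin m} (hi : i ∈ S) :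
    (Pi.single (Sum.inr i) 1 : V) ∈ XS F S := by
  intro j hj
  have : j ≠ i := fun h => hj (h ▸ hi)
  simp [Pi.single_apply, this]

theorem nd_XS (S : Finset (Fin m)) : nd (XS F S) := by
  intro x hx h
  funext k
  rcases k with i | i
  · by_cases hi : i ∈ S
    · have := h _ (inr_mem_XS hi)
      rw [sympForm_single_inr] at this
      simpa using this
    · exact (hx i hi).1
  · by_cases hi : i ∈ S
    · have := h _ (inl_mem_XS hi)
      rw [sympForm_single_inl] at this
      simpa using this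
    · exact (hx i hi).2

/-- restriction of a vector to the coordinates in `S` -/
def res (S : Finset (Fin m)) (v : V) : V := fun k => if Sum.elim id id k ∈ S then v k else 0

theorem res_mem (S : Finset (Fin m)) (v : V) : res S v ∈ XS F S := by
  intro i hi
  simp [res, hi]

theorem ff_eq_sum (u v : V) :
    ff u v = ∑ i, (u (Sum.inr i) * v (Sum.inl i) - u (Sum.inl i) * v (Sum.inr i)) := by
  have hv : v = ∑ i, (v (Sum.inl i) • (Pi.single (Sum.inl i) 1 : V)
      + v (Sum.inr i) • (Pi.single (Sum.inr i) 1 : V)) := by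
    funext k
    rcases k with j | j
    · simp [Finset.sum_apply, Pi.single_apply, Finset.sum_add_distrib]
    · simp [Finset.sum_apply, Pi.single_apply, Finset.sum_add_distrib]
  have hsum : ∀ (T : Finset (Fin m)) (g : Fin m → V), ff u (∑ i ∈ T, g i) = ∑ i ∈ T, ff u (g i) := by
    intro T g
    induction T using Finset.induction_on with
    | empty => simp [sympForm_zero_right]
    | insert a s ha ih => rw [Finset.sum_insert ha, Finset.sum_insert ha, sympForm_add_right, ih]
  conv_lhs => rw [hv]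
  rw [hsum]
  apply Finset.sum_congr rfl
  intro i _
  rw [sympForm_add_right, sympForm_smul_right, sympForm_smul_right, sympForm_single_inl,
    sympForm_single_inr]
  ring

theorem XS_orth {S T : Finset (Fin m)} (h : Disjoint S T) {x y : V} (hx : x ∈ XS F S)
    (hy : y ∈ XS F T) : ff x y = 0 := by
  rw [ff_eq_sum]
  apply Finset.sum_eq_zero
  intro i _
  by_cases hi : i ∈ S
  · have hT : i ∉ T := Finset.disjoint_left.mp h hi
    rw [(hy i hT).1, (hy i hT).2]
    ring
  · rw [(hx i hi).1, (hx i hi).2]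
    ring

theorem single_ne_zero (k : Fin m ⊕ Fin m) : (Pi.single k 1 : V) ≠ 0 := by
  intro h
  have := congrFun h k
  simp at this

theorem Cl.plane (hC : Cl C) (i : Fin m) (hb : (Pi.single (Sum.inl i) 1 : V) ∈ C)
    (hc : (Pi.single (Sum.inr i) 1 : V) ∈ C) : ∀ x ∈ XS F {i}, x ∈ C := by
  intro x hx
  have hx' : x = x (Sum.inl i) • (Pi.single (Sum.inl i) 1 : V)
      + x (Sum.inr i) • (Pi.single (Sum.inr i) 1 : V) := by
    funext k
    rcases k with j | j
    · by_cases hj : j = i
      · subst hj; simp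
      · have := (hx j (by simpa using hj)).1
        simp [Pi.single_apply, hj, this]
    · by_cases hj : j = i
      · subst hj; simp
      · have := (hx j (by simpa using hj)).2
        simp [Pi.single_apply, hj, this]
  rw [hx']
  by_cases h1 : x (Sum.inl i) = 0
  · rw [h1, zero_smul, zero_add]
    exact hC.smul _ _ hc
  by_cases h2 : x (Sum.inr i) = 0
  · rw [h2, zero_smul, add_zero]
    exact hC.smul _ _ hb
  apply hC.add _ _ (hC.smul _ _ hb) (hC.smul _ _ hc)
  rw [sympForm_smul_left, sympForm_smul_right, sympForm_single_inr]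
  simp [h1, h2]

theorem Cl.univ (hC : Cl C) (i0 : Fin m) (hb : ∀ i, (Pi.single (Sum.inl i) 1 : V) ∈ C)
    (hc : ∀ i, (Pi.single (Sum.inr i) 1 : V) ∈ C)
    (hbb : ∀ j, j ≠ i0 → (Pi.single (Sum.inl i0) 1 + Pi.single (Sum.inl j) 1 : V) ∈ C) :
    ∀ v : V, v ∈ C := by
  have key : ∀ S : Finset (Fin m), ∀ x ∈ XS F (insert i0 S), x ∈ C := by
    intro S
    induction S using Finset.induction_on with
    | empty =>
      intro x hx
      exact hC.plane i0 (hb i0) (hc i0) x (by simpa using hx)
    | insert j S hj ih =>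
      by_cases hj0 : j = i0
      · subst hj0
        intro x hx
        apply ih
        simpa using hx
      · intro x hx
        have hjS : j ∉ insert i0 S := by
          simp [hj0, hj]
        have hdis : Disjoint (insert i0 S) {j} := by
          rw [Finset.disjoint_singleton_right]; exact hjS
        have hdec : x = res (insert i0 S) x + res {j} x := by
          funext k
          have hcase : ∀ (i : Fin m) (k : Fin m ⊕ Fin m), Sum.elim id id k = i →
              (i ∉ insert i0 (insert j S) → x k = 0) →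
              x k = (res (insert i0 S) x + res {j} x) k := by
            intro i k hk h0
            simp only [Pi.add_apply, res, hk]
            by_cases h1 : i ∈ insert i0 S
            · have h2 : i ∉ ({j} : Finset (Fin m)) := Finset.disjoint_left.mp hdis h1
              rw [if_pos h1, if_neg h2, add_zero]
            · by_cases h2 : i ∈ ({j} : Finset (Fin m))
              · rw [if_neg h1, if_pos h2, zero_add]
              · rw [if_neg h1, if_neg h2, add_zero]
                apply h0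
                simp only [Finset.mem_insert, Finset.mem_singleton, not_or] at h1 h2 ⊢
                exact ⟨h1.1, h2, h1.2⟩
          rcases k with i | i
          · exact hcase i _ rfl (fun h => (hx i h).1)
          · exact hcase i _ rfl (fun h => (hx i h).2)
        rw [hdec]
        exact hC.merge ih (hC.plane j (hb j) (hc j)) (nd_XS _) (nd_XS _)
          (fun a ha b hb' => XS_orth hdis ha hb')
          (inl_mem_XS (Finset.mem_insert_self i0 S)) (single_ne_zero _)
          (inl_mem_XS (Finset.mem_singleton_self j)) (single_ne_zero _) (hbb j hj0)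
          _ (res_mem _ _) _ (res_mem _ _)
  intro v
  apply key Finset.univ
  intro i hi
  exact absurd (Finset.mem_insert_of_mem (Finset.mem_univ i)) hi

/-- the centres of the transvection groups contained in a subgroup -/
theorem cl_of_subgroup (M : Subgroup Sp) : Cl {v : V | ∀ a, tv m v a ∈ M} where
  zero := by
    intro a
    rw [tv_zero_left]
    exact M.one_mem
  smul := by
    intro a v hv c
    rw [tv_smul]
    exact hv _
  add := by
    intro a b ha hb hab c
    have h1 : ((tv m b (ff a b)⁻¹ : Sp) : Mat) *ᵥ a = a + b := by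
      rw [tv_mulVec, inv_mul_cancel₀ hab, one_smul]
    rw [← h1, ← conj_tv]
    exact M.mul_mem (M.mul_mem (hb _) (ha _)) (M.inv_mem (hb _))

theorem eq_top_of_tv (M : Subgroup Sp) (i0 : Fin m)
    (hb : ∀ i a, tv m (Pi.single (Sum.inl i) 1 : V) a ∈ M)
    (hc : ∀ i a, tv m (Pi.single (Sum.inr i) 1 : V) a ∈ M)
    (hbb : ∀ j, j ≠ i0 → ∀ a, tv m (Pi.single (Sum.inl i0) 1 + Pi.single (Sum.inl j) 1 : V) a ∈ M) :
    M = ⊤ := by
  have h := (cl_of_subgroup M).univ i0 hb hc hbb
  rw [eq_top_iff, ← Cfsg.Agent.S0765.result m, Subgroup.closure_le]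
  rintro A ⟨w, c, hA⟩
  have : A = tv m w c := Subtype.ext hA
  rw [this]
  exact h w c

end Cfsg.Agent.Lib.Helper42AutSpF
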