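import Mathlib
import Cfsg.Agent.Lib.Helper42AutSpA
import Cfsg.Prelude.Def_LieTypeDatum

set_option autoImplicit false
open Cfsg

/-! Automorphisms of `PSp_{2m}(F)`: the semilinear automorphisms of `Sp`. (helper42) -/

namespace Cfsg.Agent.Lib.Helper42AutSpG

open Matrix Cfsg.Agent.Lib.Helper17Symp Cfsg.Agent.Lib.Helper17Symp2 Cfsg.Agent.Lib.Helper7Sp
  Cfsg.Agent.Lib.Helper42AutSpA

variable {F : Type*} [Field F] {m : ℕ}

local notation "V" => (Fin m ⊕ Fin m → F)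
local notation "Sp" => Matrix.symplecticGroup (Fin m) F
local notation "Mat" => Matrix (Fin m ⊕ Fin m) (Fin m ⊕ Fin m) F
local notation "ff" => sympForm m F
local notation "π" => (QuotientGroup.mk : Matrix.symplecticGroup (Fin m) F → Cfsg.PSp m F)

theorem ff_comp (σ : F ≃+* F) (u v : V) : ff (σ ∘ u) (σ ∘ v) = σ (ff u v) := by
  rw [sympForm_eq_sum, sympForm_eq_sum, map_sum]
  simp

theorem map_mulVec_comp (σ : F ≃+* F) (A : Mat) (v : V) :
    (A.map σ) *ᵥ (σ ∘ v) = σ ∘ (A *ᵥ v) :=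
  funext fun i => (RingHom.map_mulVec (σ : F →+* F) A v i).symm

theorem comp_symm (σ : F ≃+* F) (u : V) : σ ∘ (σ.symm ∘ u) = u := by
  funext k; simp

theorem comp_add (σ : F ≃+* F) (u v : V) : σ ∘ (u + v) = σ ∘ u + σ ∘ v := by
  funext k; simp

theorem comp_smul (σ : F ≃+* F) (a : F) (v : V) : σ ∘ (a • v) = σ a • (σ ∘ v) := by
  funext k; simp

theorem comp_single (σ : F ≃+* F) (k : Fin m ⊕ Fin m) :
    σ ∘ (Pi.single k 1 : V) = Pi.single k 1 := by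
  funext j
  by_cases h : j = k
  · subst h; simp
  · simp [Pi.single_apply, h]

theorem map_mem (σ : F ≃+* F) (s : Sp) : (s : Mat).map σ ∈ Sp := by
  rw [mem_symplecticGroup_iff_preserves]
  intro u v
  rw [← comp_symm σ u, ← comp_symm σ v, map_mulVec_comp, map_mulVec_comp, ff_comp, ff_comp,
    preserves]

theorem gl_inv_mulVec (g : GL (Fin m ⊕ Fin m) F) (x : V) :
    (g : Mat) *ᵥ (((g⁻¹ : GL (Fin m ⊕ Fin m) F) : Mat) *ᵥ x) = x := by
  rw [mulVec_mulVec, ← Units.val_mul, mul_inv_cancel, Units.val_one, one_mulVec]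

theorem gl_inv_mulVec' (g : GL (Fin m ⊕ Fin m) F) (x : V) :
    ((g⁻¹ : GL (Fin m ⊕ Fin m) F) : Mat) *ᵥ ((g : Mat) *ᵥ x) = x := by
  rw [mulVec_mulVec, ← Units.val_mul, inv_mul_cancel, Units.val_one, one_mulVec]

theorem conj_mem {g : GL (Fin m ⊕ Fin m) F} (hg : g ∈ GSp m F) (σ : F ≃+* F) (s : Sp) :
    (g : Mat) * (s : Mat).map σ * ((g⁻¹ : GL (Fin m ⊕ Fin m) F) : Mat) ∈ Sp := by
  obtain ⟨c, hc⟩ := hg
  rw [mem_symplecticGroup_iff_preserves]
  intro u v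
  rw [← mulVec_mulVec, ← mulVec_mulVec, ← mulVec_mulVec, ← mulVec_mulVec, hc,
    (mem_symplecticGroup_iff_preserves m _).1 (map_mem σ s), ← hc, gl_inv_mulVec, gl_inv_mulVec]

/-- the automorphism `s ↦ g σ(s) g⁻¹` of `Sp` -/
def semi (g : GL (Fin m ⊕ Fin m) F) (hg : g ∈ GSp m F) (σ : F ≃+* F) : Sp →* Sp where
  toFun s := ⟨(g : Mat) * (s : Mat).map σ * ((g⁻¹ : GL (Fin m ⊕ Fin m) F) : Mat), conj_mem hg σ s⟩
  map_one' := by
    apply Subtype.ext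
    show (g : Mat) * ((1 : Mat)).map σ * ((g⁻¹ : GL (Fin m ⊕ Fin m) F) : Mat) = 1
    rw [Matrix.map_one _ (map_zero σ) (map_one σ), mul_one, ← Units.val_mul, mul_inv_cancel,
      Units.val_one]
  map_mul' := by
    intro s t
    apply Subtype.ext
    show (g : Mat) * ((s : Mat) * (t : Mat)).map σ * ((g⁻¹ : GL (Fin m ⊕ Fin m) F) : Mat)
      = ((g : Mat) * (s : Mat).map σ * ((g⁻¹ : GL (Fin m ⊕ Fin m) F) : Mat))
        * ((g : Mat) * (t : Mat).map σ * ((g⁻¹ : GL (Fin m ⊕ Fin m) F) : Mat))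
    have h1 : ((s : Mat) * (t : Mat)).map σ = (s : Mat).map σ * (t : Mat).map σ :=
      Matrix.map_mul (f := (σ : F →+* F))
    have h2 : ((g⁻¹ : GL (Fin m ⊕ Fin m) F) : Mat) * (g : Mat) = 1 := by
      rw [← Units.val_mul, inv_mul_cancel, Units.val_one]
    rw [h1]
    calc (g : Mat) * ((s : Mat).map σ * (t : Mat).map σ) * ((g⁻¹ : GL (Fin m ⊕ Fin m) F) : Mat)
        = (g : Mat) * (s : Mat).map σ * 1 * (t : Mat).map σ
            * ((g⁻¹ : GL (Fin m ⊕ Fin m) F) : Mat) := by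
          simp only [mul_one, mul_assoc]
      _ = _ := by
          rw [← h2]
          simp only [mul_assoc]

theorem semi_coe (g : GL (Fin m ⊕ Fin m) F) (hg : g ∈ GSp m F) (σ : F ≃+* F) (s : Sp) :
    (semi g hg σ s : Mat) = (g : Mat) * (s : Mat).map σ * ((g⁻¹ : GL (Fin m ⊕ Fin m) F) : Mat) :=
  rfl

theorem semi_mulVec (g : GL (Fin m ⊕ Fin m) F) (hg : g ∈ GSp m F) (σ : F ≃+* F) (s : Sp) (x : V) :
    (semi g hg σ s : Mat) *ᵥ ((g : Mat) *ᵥ (σ ∘ x)) = (g : Mat) *ᵥ (σ ∘ ((s : Mat) *ᵥ x)) := by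
  rw [semi_coe, ← mulVec_mulVec, ← mulVec_mulVec, gl_inv_mulVec', map_mulVec_comp]

theorem semi_tv (g : GL (Fin m ⊕ Fin m) F) (hg : g ∈ GSp m F) (σ : F ≃+* F) {c : F} (hc0 : c ≠ 0)
    (hc : ∀ u v : V, ff ((g : Mat) *ᵥ u) ((g : Mat) *ᵥ v) = c * ff u v) (v : V) (a : F) :
    semi g hg σ (tv m v a) = tv m ((g : Mat) *ᵥ (σ ∘ v)) (c⁻¹ * σ a) := by
  apply ext_mulVec
  intro x
  obtain ⟨y, rfl⟩ : ∃ y : V, x = (g : Mat) *ᵥ (σ ∘ y) :=
    ⟨σ.symm ∘ (((g⁻¹ : GL (Fin m ⊕ Fin m) F) : Mat) *ᵥ x), by rw [comp_symm, gl_inv_mulVec]⟩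
  rw [semi_mulVec, tv_mulVec, tv_mulVec, hc, ff_comp, comp_add, comp_smul, mulVec_add, mulVec_smul,
    map_mul]
  congr 2
  field_simp

theorem induced_iff (g : GL (Fin m ⊕ Fin m) F) (hg : g ∈ GSp m F) (σ : F ≃+* F)
    (β : MulAut (Cfsg.PSp m F)) :
    IsInducedBySemilinearPSp g σ β ↔ ∀ s : Sp, β (π s) = π (semi g hg σ s) := by
  constructor
  · intro h s
    exact h s _ rfl
  · intro h s s' hs
    rw [h s]
    congr 1
    exact Subtype.ext hs.symm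

/-- a symplectic matrix as an element of `GL` -/
def toGL (s : Sp) : GL (Fin m ⊕ Fin m) F :=
  Units.map (Matrix.symplecticGroup (Fin m) F).subtype (toUnits s)

theorem toGL_coe (s : Sp) : ((toGL s : GL (Fin m ⊕ Fin m) F) : Mat) = (s : Mat) := rfl

/-- `diag(1, …, 1, l, …, l)` -/
def dd (m : ℕ) {F : Type*} [Field F] (l : F) (hl : l ≠ 0) : GL (Fin m ⊕ Fin m) F where
  val := Matrix.diagonal (Sum.elim (fun _ => 1) (fun _ => l))
  inv := Matrix.diagonal (Sum.elim (fun _ => 1) (fun _ => l⁻¹))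
  val_inv := by
    rw [Matrix.diagonal_mul_diagonal, ← Matrix.diagonal_one]
    congr 1
    funext k
    rcases k with k | k
    · simp
    · simp [hl]
  inv_val := by
    rw [Matrix.diagonal_mul_diagonal, ← Matrix.diagonal_one]
    congr 1
    funext k
    rcases k with k | k
    · simp
    · simp [hl]

theorem dd_mulVec_inl {l : F} (hl : l ≠ 0) (x : V) (i : Fin m) :
    ((dd m l hl : GL (Fin m ⊕ Fin m) F) : Mat).mulVec x (Sum.inl i) = x (Sum.inl i) := by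
  show (Matrix.diagonal _ *ᵥ x) _ = _
  rw [Matrix.mulVec_diagonal]
  simp

theorem dd_mulVec_inr {l : F} (hl : l ≠ 0) (x : V) (i : Fin m) :
    ((dd m l hl : GL (Fin m ⊕ Fin m) F) : Mat).mulVec x (Sum.inr i) = l * x (Sum.inr i) := by
  show (Matrix.diagonal _ *ᵥ x) _ = _
  rw [Matrix.mulVec_diagonal]
  simp

theorem dd_ff {l : F} (hl : l ≠ 0) (u v : V) :
    ff (((dd m l hl : GL (Fin m ⊕ Fin m) F) : Mat) *ᵥ u)
      (((dd m l hl : GL (Fin m ⊕ Fin m) F) : Mat) *ᵥ v) = l * ff u v := by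
  rw [sympForm_eq_sum, sympForm_eq_sum, Finset.mul_sum]
  apply Finset.sum_congr rfl
  intro i _
  rw [dd_mulVec_inl, dd_mulVec_inl, dd_mulVec_inr, dd_mulVec_inr]
  ring

theorem dd_single_inl {l : F} (hl : l ≠ 0) (i : Fin m) :
    ((dd m l hl : GL (Fin m ⊕ Fin m) F) : Mat) *ᵥ (Pi.single (Sum.inl i) 1 : V)
      = Pi.single (Sum.inl i) 1 := by
  funext k
  rcases k with k | k
  · rw [dd_mulVec_inl]
  · rw [dd_mulVec_inr]; simp

theorem dd_single_inr {l : F} (hl : l ≠ 0) (i : Fin m) :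
    ((dd m l hl : GL (Fin m ⊕ Fin m) F) : Mat) *ᵥ (Pi.single (Sum.inr i) 1 : V)
      = l • Pi.single (Sum.inr i) 1 := by
  funext k
  rcases k with k | k
  · rw [dd_mulVec_inl]; simp
  · rw [dd_mulVec_inr]; simp

theorem mul_dd_ff (s : Sp) {l : F} (hl : l ≠ 0) (u v : V) :
    ff (((toGL s * dd m l hl : GL (Fin m ⊕ Fin m) F) : Mat) *ᵥ u)
      (((toGL s * dd m l hl : GL (Fin m ⊕ Fin m) F) : Mat) *ᵥ v) = l * ff u v := by
  rw [Units.val_mul, ← mulVec_mulVec, ← mulVec_mulVec, toGL_coe, preserves, dd_ff]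

theorem mul_dd_mem (s : Sp) {l : F} (hl : l ≠ 0) : toGL s * dd m l hl ∈ GSp m F :=
  ⟨Units.mk0 l hl, fun u v => mul_dd_ff s hl u v⟩

end Cfsg.Agent.Lib.Helper42AutSpG
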