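import Mathlib
import Cfsg.Agent.Lib.Helper42AutSpE
import Cfsg.Agent.Lib.Helper42AutSpF
import Cfsg.Agent.Lib.Helper42AutSpG
import Cfsg.Agent.Lib.Helper7SpFrame

set_option autoImplicit false
open Cfsg

/-! Automorphisms of `PSp_{2m}(F)` preserving transvections are semilinear. (helper42) -/

namespace Cfsg.Agent.Lib.Helper42AutSpH

open Matrix Cfsg.Agent.Lib.Helper17Symp Cfsg.Agent.Lib.Helper17Symp2 Cfsg.Agent.Lib.Helper7Sp
  Cfsg.Agent.Lib.Helper42AutSpA Cfsg.Agent.Lib.Helper42AutSpD Cfsg.Agent.Lib.Helper42AutSpE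
  Cfsg.Agent.Lib.Helper42AutSpF Cfsg.Agent.Lib.Helper42AutSpG Cfsg.Agent.Lib.Helper7SpFrame

variable {F : Type*} [Field F] {m : ℕ}

local notation "V" => (Fin m ⊕ Fin m → F)
local notation "Sp" => Matrix.symplecticGroup (Fin m) F
local notation "Mat" => Matrix (Fin m ⊕ Fin m) (Fin m ⊕ Fin m) F
local notation "ff" => sympForm m F
local notation "π" => (QuotientGroup.mk : Matrix.symplecticGroup (Fin m) F → Cfsg.PSp m F)

/-- a symplectic frame -/
structure Fr (E Fv : Fin m → (Fin m ⊕ Fin m → F)) : Prop where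
  h1 : ∀ i, ff (Fv i) (E i) = 1
  ee : ∀ i j, ff (E i) (E j) = 0
  ff' : ∀ i j, ff (Fv i) (Fv j) = 0
  fe : ∀ i j, i ≠ j → ff (Fv i) (E j) = 0

/-- `b i` -/
abbrev bb (F : Type*) [Field F] {m : ℕ} (i : Fin m) : Fin m ⊕ Fin m → F := Pi.single (Sum.inl i) 1
/-- `c i` -/
abbrev cc (F : Type*) [Field F] {m : ℕ} (i : Fin m) : Fin m ⊕ Fin m → F := Pi.single (Sum.inr i) 1

theorem fr_std : Fr (bb F (m := m)) (cc F) where
  h1 := by intro i; rw [sympForm_single_inl]; simp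
  ee := by intro i j; rw [sympForm_single_inl]; simp
  ff' := by intro i j; rw [sympForm_single_inr]; simp
  fe := by
    intro i j hij
    rw [sympForm_single_inl]
    simp [hij.symm]

variable {E Fv : Fin m → (Fin m ⊕ Fin m → F)}

theorem Fr.isFrame (h : Fr E Fv) : IsFrame (fun i => (Fv i, E i)) := by
  refine ⟨h.h1, ?_⟩
  intro i j hij
  exact ⟨⟨h.ff' i j, h.fe i j hij⟩, ⟨ff_zero_symm (h.fe j i hij.symm), h.ee i j⟩⟩

theorem Fr.hyp2 (h : Fr E Fv) {i j : Fin m} (hij : i ≠ j) : Hyp2 (E i) (Fv i) (E j) (Fv j) where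
  h1 := h.h1 i
  h2 := h.h1 j
  ee := h.ee i j
  ef := ff_zero_symm (h.fe j i hij.symm)
  fe := h.fe i j hij
  ff' := h.ff' i j

theorem Fr.rescale (h : Fr E Fv) {k : Fin m → F} (hk : ∀ i, k i ≠ 0) :
    Fr (fun i => k i • E i) (fun i => (k i)⁻¹ • Fv i) where
  h1 := by
    intro i
    show ff ((k i)⁻¹ • Fv i) (k i • E i) = 1
    rw [sympForm_smul_left, sympForm_smul_right, h.h1, mul_one, inv_mul_cancel₀ (hk i)]
  ee := by
    intro i j
    show ff (k i • E i) (k j • E j) = 0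
    rw [sympForm_smul_left, sympForm_smul_right, h.ee, mul_zero, mul_zero]
  ff' := by
    intro i j
    show ff ((k i)⁻¹ • Fv i) ((k j)⁻¹ • Fv j) = 0
    rw [sympForm_smul_left, sympForm_smul_right, h.ff', mul_zero, mul_zero]
  fe := by
    intro i j hij
    show ff ((k i)⁻¹ • Fv i) (k j • E j) = 0
    rw [sympForm_smul_left, sympForm_smul_right, h.fe i j hij, mul_zero, mul_zero]

/-- the symplectic matrix of a frame -/
def Fr.mat (h : Fr E Fv) : Sp := ⟨matOf (fun i => (Fv i, E i)), matOf_mem _ h.isFrame⟩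

theorem Fr.mat_inl (h : Fr E Fv) (i : Fin m) : (h.mat : Mat) *ᵥ bb F i = E i := matOf_inl _ i

theorem Fr.mat_inr (h : Fr E Fv) (i : Fin m) : (h.mat : Mat) *ᵥ cc F i = Fv i := matOf_inr _ i

theorem Fr.coord_inr (h : Fr E Fv) (x : V) (k : Fin m) :
    (((h.mat)⁻¹ : Sp) : Mat).mulVec x (Sum.inr k) = ff x (E k) := by
  have := sympForm_single_inl m ((((h.mat)⁻¹ : Sp) : Mat) *ᵥ x) k
  rw [← preserves h.mat, coe_inv_mulVec, h.mat_inl] at this
  exact this.symm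

theorem Fr.coord_inl (h : Fr E Fv) (x : V) (k : Fin m) :
    (((h.mat)⁻¹ : Sp) : Mat).mulVec x (Sum.inl k) = - ff x (Fv k) := by
  have := sympForm_single_inr m ((((h.mat)⁻¹ : Sp) : Mat) *ᵥ x) k
  rw [← preserves h.mat, coe_inv_mulVec, h.mat_inr] at this
  rw [this, neg_neg]

theorem Fr.expand (h : Fr E Fv) {i j : Fin m} (hij : i ≠ j) {x : V} (h1 : ∀ k, ff x (E k) = 0)
    (h2 : ∀ k, k ≠ i → k ≠ j → ff x (Fv k) = 0) :
    x = (- ff x (Fv i)) • E i + (- ff x (Fv j)) • E j := by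
  have h3 : (((h.mat)⁻¹ : Sp) : Mat) *ᵥ x = (- ff x (Fv i)) • bb F i + (- ff x (Fv j)) • bb F j := by
    funext k
    rcases k with k | k
    · rw [h.coord_inl]
      by_cases hki : k = i
      · subst hki
        simp [hij]
      · by_cases hkj : k = j
        · subst hkj
          simp [hki]
        · rw [h2 k hki hkj]
          simp [hki, hkj]
    · rw [h.coord_inr, h1]
      simp
  have h4 := congrArg (fun z => (h.mat : Mat) *ᵥ z) h3
  simp only [coe_inv_mulVec, mulVec_add, mulVec_smul, h.mat_inl] at h4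
  exact h4

variable {β : MulAut (Cfsg.PSp m F)}

theorem exists_frame (hm : 2 ≤ m) (hT : Helper42AutSpD.TT β) :
    ∃ (E Fv : Fin m → V) (φ ψ : Fin m → F → F), Fr E Fv ∧ (∀ i, R β (bb F i) (E i) (φ i)) ∧
      (∀ i, R β (cc F i) (Fv i) (ψ i)) := by
  choose E0 hE0 φ0 hφ0 using fun i : Fin m => exists_root hm hT (single_ne_zero (F := F) (Sum.inl i))
  choose F0 hF0 ψ0 hψ0 using fun i : Fin m => exists_root hm hT (single_ne_zero (F := F) (Sum.inr i))
  have hb : ∀ i : Fin m, bb F i ≠ 0 := fun i => single_ne_zero _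
  have hc : ∀ i : Fin m, cc F i ≠ 0 := fun i => single_ne_zero _
  have hd : ∀ i, ff (F0 i) (E0 i) ≠ 0 := by
    intro i h
    have := (R.orth hm (hψ0 i) (hφ0 i) (hc i) (hF0 i) (hb i) (hE0 i)).mpr h
    rw [fr_std.h1] at this
    exact one_ne_zero this
  refine ⟨E0, fun i => (ff (F0 i) (E0 i))⁻¹ • F0 i, φ0, _, ?_, hφ0,
    fun i => (hψ0 i).rescale (inv_ne_zero (hd i))⟩
  constructor
  · intro i
    show ff ((ff (F0 i) (E0 i))⁻¹ • F0 i) (E0 i) = 1
    rw [sympForm_smul_left, inv_mul_cancel₀ (hd i)]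
  · intro i j
    exact (R.orth hm (hφ0 i) (hφ0 j) (hb i) (hE0 i) (hb j) (hE0 j)).mp (fr_std.ee i j)
  · intro i j
    show ff ((ff (F0 i) (E0 i))⁻¹ • F0 i) ((ff (F0 j) (E0 j))⁻¹ • F0 j) = 0
    rw [sympForm_smul_left, sympForm_smul_right,
      (R.orth hm (hψ0 i) (hψ0 j) (hc i) (hF0 i) (hc j) (hF0 j)).mp (fr_std.ff' i j), mul_zero,
      mul_zero]
  · intro i j hij
    show ff ((ff (F0 i) (E0 i))⁻¹ • F0 i) (E0 j) = 0
    rw [sympForm_smul_left,
      (R.orth hm (hψ0 i) (hφ0 j) (hc i) (hF0 i) (hb j) (hE0 j)).mp (fr_std.fe i j hij), mul_zero]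

theorem Fr.ne_zero (h : Fr E Fv) (i : Fin m) : E i ≠ 0 ∧ Fv i ≠ 0 :=
  ⟨(ne_zero_of_ff (h.h1 i)).2, (ne_zero_of_ff (h.h1 i)).1⟩

theorem exists_scalar (hm : 2 ≤ m) (hT : Helper42AutSpD.TT β) (h : Fr E Fv) {φ ψ : Fin m → F → F}
    (hφ : ∀ i, R β (bb F i) (E i) (φ i)) (hψ : ∀ i, R β (cc F i) (Fv i) (ψ i)) {i j : Fin m}
    (hij : i ≠ j) : ∃ (k : F) (χ : F → F), k ≠ 0 ∧ R β (bb F i + bb F j) (E i + k • E j) χ := by
  have hb : ∀ i : Fin m, bb F i ≠ 0 := fun i => single_ne_zero _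
  have hc : ∀ i : Fin m, cc F i ≠ 0 := fun i => single_ne_zero _
  have hu : bb F i + bb F j ≠ 0 := by
    intro h0
    have := congrArg (fun z => ff (cc F i) z) h0
    simp only [sympForm_add_right, fr_std.h1, fr_std.fe i j hij, sympForm_zero_right] at this
    exact one_ne_zero (by linear_combination this)
  obtain ⟨U, hU, χ, hχ⟩ := exists_root hm hT hu
  have o1 : ∀ k, ff U (E k) = 0 := by
    intro k
    apply (R.orth hm hχ (hφ k) hu hU (hb k) (h.ne_zero k).1).mp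
    rw [sympForm_add_left, fr_std.ee, fr_std.ee, add_zero]
  have o2 : ∀ k, k ≠ i → k ≠ j → ff U (Fv k) = 0 := by
    intro k hki hkj
    apply (R.orth hm hχ (hψ k) hu hU (hc k) (h.ne_zero k).2).mp
    rw [sympForm_add_left, ff_zero_symm (fr_std.fe k i hki), ff_zero_symm (fr_std.fe k j hkj),
      add_zero]
  have o3 : ff U (Fv i) ≠ 0 := by
    intro h0
    have := (R.orth hm hχ (hψ i) hu hU (hc i) (h.ne_zero i).2).mpr h0
    rw [sympForm_add_left, ff_zero_symm (fr_std.fe i j hij), add_zero, sympForm_swap,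
      fr_std.h1] at this
    exact one_ne_zero (by linear_combination -this)
  have o4 : ff U (Fv j) ≠ 0 := by
    intro h0
    have := (R.orth hm hχ (hψ j) hu hU (hc j) (h.ne_zero j).2).mpr h0
    rw [sympForm_add_left, ff_zero_symm (fr_std.fe j i hij.symm), zero_add, sympForm_swap,
      fr_std.h1] at this
    exact one_ne_zero (by linear_combination -this)
  have hex := h.expand hij o1 o2
  obtain ⟨α, hα⟩ : ∃ α, α = - ff U (Fv i) := ⟨_, rfl⟩
  obtain ⟨γ, hγ⟩ : ∃ γ, γ = - ff U (Fv j) := ⟨_, rfl⟩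
  rw [← hα, ← hγ] at hex
  have hα0 : α ≠ 0 := by rw [hα]; exact neg_ne_zero.mpr o3
  have hγ0 : γ ≠ 0 := by rw [hγ]; exact neg_ne_zero.mpr o4
  have h5 := hχ.rescale (inv_ne_zero hα0)
  have h6 : α⁻¹ • U = E i + (α⁻¹ * γ) • E j := by
    rw [hex, smul_add, smul_smul, smul_smul, inv_mul_cancel₀ hα0, one_smul]
  rw [h6] at h5
  exact ⟨α⁻¹ * γ, _, mul_ne_zero (inv_ne_zero hα0) hγ0, h5⟩

/-- an adapted frame -/
theorem exists_frame' (hm : 2 ≤ m) (hT : Helper42AutSpD.TT β) (i0 : Fin m) :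
    ∃ (E Fv : Fin m → V) (φ ψ χ : Fin m → F → F), Fr E Fv ∧ (∀ i, R β (bb F i) (E i) (φ i)) ∧
      (∀ i, R β (cc F i) (Fv i) (ψ i)) ∧
      (∀ j, j ≠ i0 → R β (bb F i0 + bb F j) (E i0 + E j) (χ j)) := by
  obtain ⟨E, Fv, φ, ψ, h, hφ, hψ⟩ := exists_frame hm hT
  have key : ∀ j, ∃ (k : F) (χ : F → F), k ≠ 0 ∧ (j = i0 → k = 1) ∧
      (j ≠ i0 → R β (bb F i0 + bb F j) (E i0 + k • E j) χ) := by
    intro j
    by_cases hj : j = i0
    · exact ⟨1, id, one_ne_zero, fun _ => rfl, fun h => absurd hj h⟩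
    · obtain ⟨k, χ, hk, hχ⟩ := exists_scalar hm hT h hφ hψ (Ne.symm hj)
      exact ⟨k, χ, hk, fun h => absurd h hj, fun _ => hχ⟩
  choose k χ hk hk1 hχ using key
  refine ⟨fun i => k i • E i, fun i => (k i)⁻¹ • Fv i, _, _, χ, h.rescale hk,
    fun i => (hφ i).rescale (hk i), fun i => (hψ i).rescale (inv_ne_zero (hk i)), ?_⟩
  intro j hj
  show R β (bb F i0 + bb F j) (k i0 • E i0 + k j • E j) (χ j)
  rw [hk1 i0 rfl, one_smul]
  exact hχ j hj

/-- **Main theorem**: an automorphism of `PSp_{2m}(F)` mapping transvections to transvections is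
induced by a semilinear conformal symplectic map. -/
theorem induced [Finite F] (hm : 2 ≤ m) (hT : Helper42AutSpD.TT β) :
    ∃ (g : GL (Fin m ⊕ Fin m) F) (σ : F ≃+* F), g ∈ GSp m F ∧ IsInducedBySemilinearPSp g σ β := by
  let i0 : Fin m := ⟨0, by omega⟩
  obtain ⟨E, Fv, φ, ψ, χ, h, hφ, hψ, hχ⟩ := exists_frame' hm hT i0
  obtain ⟨l, σ, hl, hφσ, hψσ⟩ := exists_sigma hm (fr_std.h1 i0) (h.h1 i0) (hφ i0) (hψ i0)
  have L : ∀ j, j ≠ i0 → (∀ a, φ j a = φ i0 a) ∧ (∀ a, χ j a = φ i0 a) := fun j hj =>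
    link hm (fr_std.hyp2 (Ne.symm hj)) (h.hyp2 (Ne.symm hj)) (hφ i0) (hψ i0) (hφ j) (hψ j) (hχ j hj)
  have hφ' : ∀ j a, φ j a = l * σ a := by
    intro j a
    by_cases hj : j = i0
    · rw [hj, hφσ]
    · rw [(L j hj).1, hφσ]
  have hψ' : ∀ j a, ψ j a = l⁻¹ * σ a := by
    intro j a
    obtain ⟨l', σ', hl', h1, h2⟩ := exists_sigma hm (fr_std.h1 j) (h.h1 j) (hφ j) (hψ j)
    have e1 : l' = l := by
      have := h1 1
      rw [hφ', map_one, map_one, mul_one, mul_one] at this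
      exact this.symm
    have e2 : σ' a = σ a := by
      have := h1 a
      rw [hφ', e1] at this
      exact (mul_left_cancel₀ hl this).symm
    rw [h2, e1, e2]
  have hl' : l⁻¹ ≠ 0 := inv_ne_zero hl
  refine ⟨toGL h.mat * dd m l⁻¹ hl', σ, mul_dd_mem _ hl', ?_⟩
  rw [induced_iff _ (mul_dd_mem _ hl')]
  obtain ⟨Φ, hΦ⟩ : ∃ Φ : Sp →* Sp, Φ = semi (toGL h.mat * dd m l⁻¹ hl') (mul_dd_mem _ hl') σ :=
    ⟨_, rfl⟩
  rw [← hΦ]
  have hΦtv : ∀ (v : V) (a : F), Φ (tv m v a)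
      = tv m ((h.mat : Mat) *ᵥ (((dd m l⁻¹ hl' : GL (Fin m ⊕ Fin m) F) : Mat) *ᵥ (σ ∘ v)))
        (l * σ a) := by
    intro v a
    rw [hΦ, semi_tv _ _ σ hl' (mul_dd_ff h.mat hl'), inv_inv, Units.val_mul, ← mulVec_mulVec,
      toGL_coe]
  let M : Subgroup Sp := (β.toMonoidHom.comp (QuotientGroup.mk' _)).eqLocus
    ((QuotientGroup.mk' _).comp Φ)
  have hM : ∀ s : Sp, s ∈ M ↔ β (π s) = π (Φ s) := fun s => Iff.rfl
  have htop : M = ⊤ := by
    apply eq_top_of_tv M i0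
    · intro i a
      rw [hM, hΦtv, comp_single, dd_single_inl, h.mat_inl, hφ i, hφ']
    · intro i a
      rw [hM, hΦtv, comp_single, dd_single_inr, mulVec_smul, h.mat_inr, hψ i, hψ', tv_smul]
      congr 2
      field_simp
    · intro j hj a
      rw [hM, hΦtv, comp_add, comp_single, comp_single, mulVec_add, dd_single_inl, dd_single_inl,
        mulVec_add, h.mat_inl, h.mat_inl, hχ j hj, (L j hj).2, hφσ]
  intro s
  rw [← hM, htop]
  exact Subgroup.mem_top s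

end Cfsg.Agent.Lib.Helper42AutSpH
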