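import Mathlib
import Cfsg.Agent.Lib.Helper42AutSpB
import Cfsg.Agent.Lib.Helper42AutSpC
import Cfsg.Agent.Lib.Helper42AutSpH

set_option autoImplicit false
open Cfsg

/-! Every automorphism of `PSp_{2m}(F)`, `(2m, p) ≠ (4, 2)`, is semilinear. (helper42) -/

namespace Cfsg.Agent.Lib.Helper42AutSpI

/-- Strong form of `Aut(PSp_{2m}(q)) = PΓSp_{2m}(q)`: every automorphism is induced by one pair
`(g, σ)`. -/
theorem aut_induced {F : Type*} [Field F] [Fintype F] {p : ℕ} [Fact p.Prime] [CharP F p] {m : ℕ}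
    (hm : 2 ≤ m) (h4 : m = 2 → p ≠ 2) (β : MulAut (Cfsg.PSp m F)) :
    ∃ (g : GL (Fin m ⊕ Fin m) F) (σ : F ≃+* F), g ∈ GSp m F ∧ IsInducedBySemilinearPSp g σ β := by
  apply Helper42AutSpH.induced hm
  intro e a
  by_cases hp : p = 2
  · subst hp
    have hm3 : 3 ≤ m := by
      by_contra h
      exact h4 (by omega) rfl
    exact Helper42AutSpC.tv_map_even hm3 β e a
  · exact Helper42AutSpB.tv_map_odd p hp hm β e a

end Cfsg.Agent.Lib.Helper42AutSpI
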