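import Mathlib
import Cfsg.Agent.Lib.Helper42AutSpG
import Cfsg.Agent.Lib.Helper42AutSpF

set_option autoImplicit false
open Cfsg

/-! The homomorphisms `GSp → Aut(PSp)`, `Aut(F) → Aut(PSp)`. (helper42) -/

namespace Cfsg.Agent.Lib.Helper42AutSpJ

open Matrix Cfsg.Agent.Lib.Helper17Symp Cfsg.Agent.Lib.Helper17Symp2 Cfsg.Agent.Lib.Helper7Sp
  Cfsg.Agent.Lib.Helper42AutSpA Cfsg.Agent.Lib.Helper42AutSpG

variable {F : Type*} [Field F] {m : ℕ}

local notation "V" => (Fin m ⊕ Fin m → F)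
local notation "Sp" => Matrix.symplecticGroup (Fin m) F
local notation "Mat" => Matrix (Fin m ⊕ Fin m) (Fin m ⊕ Fin m) F
local notation "ff" => sympForm m F
local notation "π" => (QuotientGroup.mk : Matrix.symplecticGroup (Fin m) F → Cfsg.PSp m F)
local notation "GS" => { x // x ∈ GSp m F }
local notation "AutP" => MulAut (Cfsg.PSp m F)
local notation "JJ" => Matrix.J (Fin m) F

theorem J_map {K : Type*} [Field K] (j : K →+* F) : (Matrix.J (Fin m) K).map j = JJ := by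
  unfold Matrix.J
  rw [Matrix.fromBlocks_map]
  congr 1
  · ext a b; simp
  · ext a b
    by_cases h : a = b
    · subst h; simp
    · simp [h]
  · ext a b
    by_cases h : a = b
    · subst h; simp
    · simp [h]
  · ext a b; simp

theorem ff_mulVec (A : Mat) (u v : V) : ff (A *ᵥ u) (A *ᵥ v) = u ⬝ᵥ ((Aᵀ * JJ * A) *ᵥ v) := by
  simp only [sympForm]
  rw [mulVec_mulVec, ← vecMul_transpose, dotProduct_mulVec, vecMul_vecMul, ← dotProduct_mulVec,
    ← mul_assoc]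

theorem gram_apply (A : Mat) (i k : Fin m ⊕ Fin m) :
    (Aᵀ * JJ * A) i k = ff (A *ᵥ Pi.single i 1) (A *ᵥ Pi.single k 1) := by
  rw [ff_mulVec]
  simp

theorem J_apply (i k : Fin m ⊕ Fin m) : JJ i k = ff (Pi.single i 1) (Pi.single k 1) := by
  simp [sympForm]

theorem mem_GSp_iff (g : GL (Fin m ⊕ Fin m) F) :
    g ∈ GSp m F ↔ ∃ c : Fˣ, (g : Mat)ᵀ * JJ * (g : Mat) = (c : F) • JJ := by
  constructor
  · rintro ⟨c, hc⟩
    refine ⟨c, ?_⟩
    ext i k
    rw [gram_apply, hc, Matrix.smul_apply, J_apply, smul_eq_mul]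
  · rintro ⟨c, hc⟩
    refine ⟨c, fun u v => ?_⟩
    rw [ff_mulVec, hc, smul_mulVec, dotProduct_smul, smul_eq_mul]
    rfl

/-- base change of conformal symplectic matrices -/
def mapG {K : Type*} [Field K] (j : K →+* F) : ↥(GSp m K) →* GS :=
  ((Matrix.GeneralLinearGroup.map j).comp (GSp m K).subtype).codRestrict (GSp m F) (fun g => by
    obtain ⟨c, hc⟩ := (mem_GSp_iff _).1 g.2
    rw [mem_GSp_iff]
    refine ⟨Units.map (j : K →* F) c, ?_⟩
    show ((g.1 : Matrix (Fin m ⊕ Fin m) (Fin m ⊕ Fin m) K).map j)ᵀ * JJ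
      * ((g.1 : Matrix (Fin m ⊕ Fin m) (Fin m ⊕ Fin m) K).map j) = j c • JJ
    have h1 := congrArg (fun A : Matrix (Fin m ⊕ Fin m) (Fin m ⊕ Fin m) K => A.map j) hc
    simp only [Matrix.map_mul] at h1
    rw [J_map, Matrix.transpose_map] at h1
    rw [h1]
    ext a b
    simp only [Matrix.map_apply, Matrix.smul_apply, smul_eq_mul, map_mul]
    rw [← J_map j]
    rfl)

theorem mapG_coe {K : Type*} [Field K] (j : K →+* F) (g : ↥(GSp m K)) :
    (((mapG j g : GS) : GL (Fin m ⊕ Fin m) F) : Mat)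
      = (g.1 : Matrix (Fin m ⊕ Fin m) (Fin m ⊕ Fin m) K).map j := rfl

theorem mapG_one (g : GS) : mapG (((1 : F ≃+* F) : F ≃+* F) : F →+* F) g = g := by
  apply Subtype.ext
  apply Units.ext
  ext a b
  rfl

/-! ### the multiplier -/

theorem exists_ff_one (hm : 0 < m) : ∃ u v : V, ff u v = 1 :=
  ⟨Pi.single (Sum.inr ⟨0, hm⟩) 1, Pi.single (Sum.inl ⟨0, hm⟩) 1, by
    rw [sympForm_single_inl]; simp⟩

/-- the multiplier of a conformal symplectic matrix -/
noncomputable def mu (hm : 0 < m) : GS →* Fˣ where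
  toFun g := Classical.choose g.2
  map_one' := by
    obtain ⟨u, v, huv⟩ := exists_ff_one (F := F) hm
    have h := Classical.choose_spec (1 : GS).2 u v
    ext
    simpa [huv] using h.symm
  map_mul' g h := by
    obtain ⟨u, v, huv⟩ := exists_ff_one (F := F) hm
    have h1 := Classical.choose_spec (g * h).2 u v
    have h2 := Classical.choose_spec g.2 ((h.1 : Mat) *ᵥ u) ((h.1 : Mat) *ᵥ v)
    have h3 := Classical.choose_spec h.2 u v
    ext
    rw [Units.val_mul]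
    have e : ∀ z : V, (((g * h : GS) : GL (Fin m ⊕ Fin m) F) : Mat) *ᵥ z
        = (g.1 : Mat) *ᵥ ((h.1 : Mat) *ᵥ z) := fun z => (mulVec_mulVec _ _ _).symm
    have h4 := h1.symm.trans (by rw [e, e, h2, h3])
    rw [huv, mul_one, mul_one] at h4
    exact h4

theorem mu_spec (hm : 0 < m) (g : GS) (u v : V) :
    ff ((g.1 : Mat) *ᵥ u) ((g.1 : Mat) *ᵥ v) = (mu hm g : F) * ff u v :=
  Classical.choose_spec g.2 u v

theorem mu_unique (hm : 0 < m) (g : GS) {c : F}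
    (h : ∀ u v : V, ff ((g.1 : Mat) *ᵥ u) ((g.1 : Mat) *ᵥ v) = c * ff u v) : (mu hm g : F) = c := by
  obtain ⟨u, v, huv⟩ := exists_ff_one (F := F) hm
  have h1 := mu_spec hm g u v
  rw [h, huv, mul_one, mul_one] at h1
  exact h1.symm

/-! ### the automorphisms -/

theorem comp_injective (σ : F ≃+* F) {x y : V} (h : σ ∘ x = σ ∘ y) : x = y := by
  funext k
  exact σ.injective (congrFun h k)

theorem gl_mulVec_injective (g : GL (Fin m ⊕ Fin m) F) {x y : V}
    (h : (g : Mat) *ᵥ x = (g : Mat) *ᵥ y) : x = y := by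
  rw [← gl_inv_mulVec' g x, h, gl_inv_mulVec']

theorem semi_injective (g : GL (Fin m ⊕ Fin m) F) (hg : g ∈ GSp m F) (σ : F ≃+* F) :
    Function.Injective (semi g hg σ) := by
  rw [injective_iff_map_eq_one]
  intro s hs
  apply ext_mulVec
  intro x
  have h := semi_mulVec g hg σ s x
  rw [hs] at h
  have h1 : ((1 : Sp) : Mat) = 1 := rfl
  rw [h1, one_mulVec] at h ⊢
  exact (comp_injective σ (gl_mulVec_injective g h)).symm

/-- `s ↦ g σ(s) g⁻¹` as an automorphism of `Sp` -/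
noncomputable def semiE [Finite F] (g : GL (Fin m ⊕ Fin m) F) (hg : g ∈ GSp m F) (σ : F ≃+* F) :
    Sp ≃* Sp :=
  MulEquiv.ofBijective (semi g hg σ) (Finite.injective_iff_bijective.mp (semi_injective g hg σ))

/-- lift an automorphism of `Sp` to `PSp` -/
noncomputable def liftAut (θ : Sp ≃* Sp) : AutP :=
  QuotientGroup.congr (Subgroup.center Sp) (Subgroup.center Sp) θ
    (Subgroup.characteristic_iff_map_eq.1 inferInstance θ)

theorem liftAut_mk (θ : Sp ≃* Sp) (s : Sp) : liftAut θ (π s) = π (θ s) := rfl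

variable [Finite F]

/-- the automorphism of `PSp` induced by `(g, σ)` -/
noncomputable def aut (g : GS) (σ : F ≃+* F) : AutP := liftAut (semiE g.1 g.2 σ)

theorem aut_mk (g : GS) (σ : F ≃+* F) (s : Sp) : aut g σ (π s) = π (semi g.1 g.2 σ s) := rfl

theorem induced_iff' (g : GS) (σ : F ≃+* F) (β : AutP) :
    IsInducedBySemilinearPSp g.1 σ β ↔ β = aut g σ := by
  rw [induced_iff g.1 g.2]
  constructor
  · intro h
    ext x
    obtain ⟨s, rfl⟩ := QuotientGroup.mk_surjective x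
    rw [h, aut_mk]
  · rintro rfl s
    rfl

theorem aut_mul (g h : GS) (σ τ : F ≃+* F) :
    aut g σ * aut h τ = aut (g * mapG (σ : F →+* F) h) (σ * τ) := by
  ext x
  obtain ⟨s, rfl⟩ := QuotientGroup.mk_surjective x
  rw [MulAut.mul_apply, aut_mk, aut_mk, aut_mk]
  congr 1
  apply ext_mulVec
  intro x
  obtain ⟨y, rfl⟩ : ∃ y : V, x = (g.1 : Mat) *ᵥ (σ ∘ ((h.1 : Mat) *ᵥ (τ ∘ y))) := by
    refine ⟨τ.symm ∘ (((h.1⁻¹ : GL (Fin m ⊕ Fin m) F) : Mat) *ᵥ
      (σ.symm ∘ (((g.1⁻¹ : GL (Fin m ⊕ Fin m) F) : Mat) *ᵥ x))), ?_⟩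
    rw [comp_symm, gl_inv_mulVec, comp_symm, gl_inv_mulVec]
  rw [semi_mulVec, semi_mulVec]
  have e : (g.1 : Mat) *ᵥ (σ ∘ ((h.1 : Mat) *ᵥ (τ ∘ y)))
      = (((g * mapG (σ : F →+* F) h : GS) : GL (Fin m ⊕ Fin m) F) : Mat) *ᵥ ((σ * τ : F ≃+* F) ∘ y) := by
    have e1 : (((g * mapG (σ : F →+* F) h : GS) : GL (Fin m ⊕ Fin m) F) : Mat)
        = (g.1 : Mat) * (h.1 : Mat).map σ := rfl
    rw [e1, ← mulVec_mulVec, ← map_mulVec_comp]
    rfl
  rw [e, semi_mulVec]
  have e1 : (((g * mapG (σ : F →+* F) h : GS) : GL (Fin m ⊕ Fin m) F) : Mat)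
      = (g.1 : Mat) * (h.1 : Mat).map σ := rfl
  rw [e1, ← mulVec_mulVec]
  have e2 : ((σ * τ : F ≃+* F) ∘ ((s : Mat) *ᵥ y)) = σ ∘ (τ ∘ ((s : Mat) *ᵥ y)) := rfl
  rw [e2, map_mulVec_comp]

/-- `GSp → Aut(PSp)` -/
noncomputable def cHom : GS →* AutP :=
  MonoidHom.mk' (fun g => aut g 1) (fun g h => by
    rw [aut_mul, mapG_one, mul_one])

/-- `Aut(F) → Aut(PSp)` -/
noncomputable def fHom : (F ≃+* F) →* AutP :=
  MonoidHom.mk' (fun σ => aut 1 σ) (fun σ τ => by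
    rw [aut_mul, map_one, mul_one])

theorem cHom_apply (g : GS) : cHom g = aut g 1 := rfl

theorem fHom_apply (σ : F ≃+* F) : (fHom σ : AutP) = aut 1 σ := rfl

theorem aut_eq (g : GS) (σ : F ≃+* F) : aut g σ = cHom g * fHom σ := by
  rw [cHom_apply, fHom_apply, aut_mul, map_one, mul_one, one_mul]

theorem fHom_mul_cHom (σ : F ≃+* F) (g : GS) :
    fHom σ * cHom g = cHom (mapG (σ : F →+* F) g) * fHom σ := by
  rw [← aut_eq, cHom_apply, fHom_apply, aut_mul, one_mul, mul_one]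

theorem aut_tv (hm : 0 < m) (g : GS) (σ : F ≃+* F) (v : V) (a : F) :
    aut g σ (π (tv m v a)) = π (tv m ((g.1 : Mat) *ᵥ (σ ∘ v)) ((mu hm g : F)⁻¹ * σ a)) := by
  rw [aut_mk, semi_tv g.1 g.2 σ (mu hm g).ne_zero (mu_spec hm g)]

theorem aut_eq_one (hm : 2 ≤ m) (g : GS) (σ : F ≃+* F) (h : aut g σ = 1) :
    σ = 1 ∧ g.1 ∈ Geo.scalars (Fin m ⊕ Fin m) F := by
  have hm0 : 0 < m := by omega
  have key : ∀ (v : V) (a : F),
      tv m ((g.1 : Mat) *ᵥ (σ ∘ v)) ((mu hm0 g : F)⁻¹ * σ a) = tv m v a := by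
    intro v a
    apply mk_tv_eq hm
    rw [← aut_tv, h]
    rfl
  have hne : ∀ v : V, v ≠ 0 → (g.1 : Mat) *ᵥ (σ ∘ v) ≠ 0 := by
    intro v hv h0
    apply hv
    apply comp_injective σ
    apply gl_mulVec_injective g.1
    rw [h0]
    have : σ ∘ (0 : V) = 0 := by funext k; simp
    rw [this, mulVec_zero]
  have hc : (mu hm0 g : F)⁻¹ * σ 1 ≠ 0 := by
    rw [map_one, mul_one]
    exact inv_ne_zero (mu hm0 g).ne_zero
  have hpar : ∀ v : V, v ≠ 0 → ∃ c : F, (g.1 : Mat) *ᵥ (σ ∘ v) = c • v := fun v hv =>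
    tv_par (hne v hv) hc (key v 1)
  have hs : ∀ k : Fin m ⊕ Fin m, (Pi.single k 1 : V) ≠ 0 := fun k =>
    Cfsg.Agent.Lib.Helper42AutSpF.single_ne_zero k
  choose! l hl using fun k => hpar _ (hs k)
  simp only [comp_single] at hl
  have hll : ∀ k k', l k = l k' := by
    intro k k'
    by_cases hkk : k = k'
    · rw [hkk]
    have hne' : (Pi.single k 1 + Pi.single k' 1 : V) ≠ 0 := by
      intro h0
      have := congrFun h0 k
      simp [Pi.single_apply, hkk] at this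
    obtain ⟨c, hc'⟩ := hpar _ hne'
    rw [comp_add, comp_single, comp_single, mulVec_add, hl, hl] at hc'
    have h1 := congrFun hc' k
    have h2 := congrFun hc' k'
    simp [Pi.single_apply, hkk, Ne.symm hkk] at h1 h2
    rw [h1, h2]
  let k0 : Fin m ⊕ Fin m := Sum.inl ⟨0, hm0⟩
  have hg : (g.1 : Mat) = l k0 • 1 := by
    apply Matrix.ext_of_mulVec_single
    intro k
    rw [hl, hll k k0, smul_mulVec, one_mulVec]
  have hl0 : l k0 ≠ 0 := by
    intro h0
    have := hne _ (hs k0)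
    rw [comp_single, hl, h0, zero_smul] at this
    exact this rfl
  refine ⟨?_, (Geo.mem_scalars_iff _).2 ⟨Units.mk0 _ hl0, hg⟩⟩
  have hmu : (mu hm0 g : F) = l k0 ^ 2 := by
    apply mu_unique
    intro u v
    rw [hg, smul_mulVec, smul_mulVec, one_mulVec, one_mulVec, sympForm_smul_left,
      sympForm_smul_right]
    ring
  ext a
  have h1 := key (Pi.single k0 1) a
  rw [comp_single, hl, tv_smul, hmu] at h1
  have h2 := tv_inj (hs k0) h1
  show σ a = a
  have h3 : l k0 ^ 2 * ((l k0 ^ 2)⁻¹ * σ a) = σ a := by field_simp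
  rw [← h3, h2]

theorem cHom_scalar (g : GS) (h : g.1 ∈ Geo.scalars (Fin m ⊕ Fin m) F) : cHom g = (1 : AutP) := by
  obtain ⟨c, hc⟩ := (Geo.mem_scalars_iff _).1 h
  ext x
  obtain ⟨s, rfl⟩ := QuotientGroup.mk_surjective x
  rw [cHom_apply, aut_mk, MulAut.one_apply]
  congr 1
  apply ext_mulVec
  intro x
  obtain ⟨y, rfl⟩ : ∃ y : V, x = (g.1 : Mat) *ᵥ ((1 : F ≃+* F) ∘ y) :=
    ⟨((g.1⁻¹ : GL (Fin m ⊕ Fin m) F) : Mat) *ᵥ x, (gl_inv_mulVec g.1 x).symm⟩
  rw [semi_mulVec]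
  have e : ∀ z : V, ((1 : F ≃+* F) ∘ z) = z := fun z => rfl
  rw [e, e, hc, smul_mulVec, smul_mulVec, one_mulVec, one_mulVec, mulVec_smul]

theorem ker_cHom (hm : 2 ≤ m) :
    (cHom : GS →* AutP).ker = (Geo.scalars (Fin m ⊕ Fin m) F).subgroupOf (GSp m F) := by
  ext g
  rw [MonoidHom.mem_ker, Subgroup.mem_subgroupOf]
  exact ⟨fun h => (aut_eq_one hm g 1 h).2, cHom_scalar g⟩

theorem fHom_injective (hm : 2 ≤ m) : Function.Injective (fHom : (F ≃+* F) →* AutP) := by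
  rw [injective_iff_map_eq_one]
  intro σ h
  exact (aut_eq_one hm 1 σ h).1

theorem isStdField_iff (σ : F ≃+* F) (β : AutP) : IsStdFieldAutPSp σ β ↔ β = fHom σ := by
  rw [fHom_apply, ← induced_iff']
  constructor
  · intro h s s' hs
    apply h
    rw [hs]
    simp
  · intro h s s' hs
    apply h
    rw [hs]
    simp

theorem isInnerDiagonal_iff (β : AutP) :
    IsInnerDiagonalAutPSp β ↔ β ∈ (cHom : GS →* AutP).range := by
  constructor
  · rintro ⟨g, hg, h⟩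
    exact ⟨⟨g, hg⟩, ((induced_iff' ⟨g, hg⟩ _ β).1 h).symm⟩
  · rintro ⟨g, rfl⟩
    exact ⟨g.1, g.2, (induced_iff' g _ _).2 rfl⟩

theorem inndiag_eq : inndiagPSp m F = (cHom : GS →* AutP).range := by
  unfold inndiagPSp autSubgroupOf
  have : {β : AutP | IsInnerDiagonalAutPSp β} = ((cHom : GS →* AutP).range : Set AutP) := by
    ext β
    exact isInnerDiagonal_iff β
  rw [this, Subgroup.closure_eq]

end Cfsg.Agent.Lib.Helper42AutSpJ
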