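import Mathlib
import Cfsg.Agent.Lib.Helper42AutSpJ
import Cfsg.Agent.Lib.Helper42AutSpI

set_option autoImplicit false
open Cfsg

/-! Inner automorphisms inside `PGSp`, normality of `PGSp` in `Aut(PSp)`. (helper42) -/

namespace Cfsg.Agent.Lib.Helper42AutSpK

open Matrix Cfsg.Agent.Lib.Helper17Symp Cfsg.Agent.Lib.Helper17Symp2 Cfsg.Agent.Lib.Helper7Sp
  Cfsg.Agent.Lib.Helper42AutSpA Cfsg.Agent.Lib.Helper42AutSpG Cfsg.Agent.Lib.Helper42AutSpJ

variable {F : Type*} [Field F] {m : ℕ}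

local notation "V" => (Fin m ⊕ Fin m → F)
local notation "Sp" => Matrix.symplecticGroup (Fin m) F
local notation "Mat" => Matrix (Fin m ⊕ Fin m) (Fin m ⊕ Fin m) F
local notation "ff" => sympForm m F
local notation "π" => (QuotientGroup.mk : Matrix.symplecticGroup (Fin m) F → Cfsg.PSp m F)
local notation "GS" => { x // x ∈ GSp m F }
local notation "AutP" => MulAut (Cfsg.PSp m F)

/-- `Sp → GSp` -/
def toGS (s : Sp) : GS := ⟨toGL s, ⟨1, fun u v => by rw [toGL_coe, preserves, Units.val_one, one_mul]⟩⟩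

theorem toGS_coe (s : Sp) : ((toGS s).1 : Mat) = (s : Mat) := rfl

theorem mu_toGS (hm : 0 < m) (s : Sp) : mu hm (toGS s) = 1 := by
  ext
  rw [Units.val_one]
  apply mu_unique
  intro u v
  rw [toGS_coe, preserves, one_mul]

/-- scalar matrices in `GSp` -/
def scalG (c : Fˣ) : GS :=
  ⟨⟨(c : F) • 1, ((c⁻¹ : Fˣ) : F) • 1, by
      rw [smul_mul_smul_comm, mul_one, ← Units.val_mul, mul_inv_cancel, Units.val_one, one_smul], by
      rw [smul_mul_smul_comm, mul_one, ← Units.val_mul, inv_mul_cancel, Units.val_one, one_smul]⟩,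
    ⟨c ^ 2, fun u v => by
      show ff (((c : F) • (1 : Mat)) *ᵥ u) (((c : F) • (1 : Mat)) *ᵥ v) = _
      rw [smul_mulVec, smul_mulVec, one_mulVec, one_mulVec, sympForm_smul_left,
        sympForm_smul_right, Units.val_pow_eq_pow_val]
      ring⟩⟩

theorem scalG_coe (c : Fˣ) : ((scalG (m := m) c).1 : Mat) = (c : F) • 1 := rfl

theorem scalG_mem (c : Fˣ) : (scalG (m := m) c).1 ∈ Geo.scalars (Fin m ⊕ Fin m) F :=
  (Geo.mem_scalars_iff _).2 ⟨c, rfl⟩

theorem mu_scalG (hm : 0 < m) (c : Fˣ) : mu hm (scalG c) = c ^ 2 := by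
  ext
  rw [Units.val_pow_eq_pow_val]
  apply mu_unique
  intro u v
  rw [scalG_coe, smul_mulVec, smul_mulVec, one_mulVec, one_mulVec, sympForm_smul_left,
    sympForm_smul_right]
  ring

theorem eq_scalG {g : GS} (h : g.1 ∈ Geo.scalars (Fin m ⊕ Fin m) F) : ∃ c : Fˣ, g = scalG c := by
  obtain ⟨c, hc⟩ := (Geo.mem_scalars_iff _).1 h
  exact ⟨c, Subtype.ext (Units.ext hc)⟩

theorem mu_surjective (hm : 0 < m) : Function.Surjective (mu (F := F) hm) := by
  intro l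
  refine ⟨⟨toGL 1 * dd m (l : F) l.ne_zero, mul_dd_mem _ _⟩, ?_⟩
  ext
  apply mu_unique
  intro u v
  exact mul_dd_ff 1 l.ne_zero u v

theorem exists_toGS (hm : 0 < m) {g : GS} (h : mu hm g = 1) : ∃ s : Sp, g = toGS s := by
  refine ⟨⟨(g.1 : Mat), ?_⟩, Subtype.ext (Units.ext rfl)⟩
  rw [mem_symplecticGroup_iff_preserves]
  intro u v
  rw [mu_spec hm, h, Units.val_one, one_mul]

variable [Finite F]

theorem cHom_toGS (s : Sp) : cHom (toGS s) = MulAut.conj (π s) := by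
  ext x
  obtain ⟨t, rfl⟩ := QuotientGroup.mk_surjective x
  rw [cHom_apply, aut_mk, MulAut.conj_apply]
  show _ = π (s * t * s⁻¹)
  congr 1

theorem inn_le_range : Cfsg.Inn (Cfsg.PSp m F) ≤ (cHom : GS →* AutP).range := by
  rintro _ ⟨x, rfl⟩
  obtain ⟨s, rfl⟩ := QuotientGroup.mk_surjective x
  exact ⟨_, cHom_toGS s⟩

theorem cHom_mem_inn_iff (hm : 2 ≤ m) (g : GS) :
    cHom g ∈ Cfsg.Inn (Cfsg.PSp m F) ↔
      mu (by omega : 0 < m) g ∈ (powMonoidHom 2 : Fˣ →* Fˣ).range := by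
  have hm0 : 0 < m := by omega
  constructor
  · rintro ⟨x, hx⟩
    obtain ⟨s, rfl⟩ := QuotientGroup.mk_surjective x
    have hx' : MulAut.conj (π s) = cHom g := hx
    rw [← cHom_toGS] at hx'
    have h1 : g * (toGS s)⁻¹ ∈ (cHom : GS →* AutP).ker := by
      rw [MonoidHom.mem_ker, map_mul, map_inv, hx', mul_inv_cancel]
    rw [ker_cHom hm, Subgroup.mem_subgroupOf] at h1
    obtain ⟨c, hc⟩ := eq_scalG h1
    refine ⟨c, ?_⟩
    have h2 : g = scalG c * toGS s := by rw [← hc, inv_mul_cancel_right]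
    rw [h2, map_mul, mu_scalG, mu_toGS, mul_one, powMonoidHom_apply]
  · rintro ⟨d, hd⟩
    rw [powMonoidHom_apply] at hd
    have h1 : mu hm0 (scalG d⁻¹ * g) = 1 := by
      rw [map_mul, mu_scalG, ← hd, inv_pow, inv_mul_cancel]
    obtain ⟨s, hs⟩ := exists_toGS hm0 h1
    refine ⟨π s, ?_⟩
    show MulAut.conj (π s) = cHom g
    rw [← cHom_toGS, ← hs, map_mul, cHom_scalar _ (scalG_mem _), one_mul]

theorem range_eq_inn_of_char_two [CharP F 2] (hm : 2 ≤ m) :
    (cHom : GS →* AutP).range = Cfsg.Inn (Cfsg.PSp m F) := by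
  apply le_antisymm _ inn_le_range
  rintro _ ⟨g, rfl⟩
  rw [cHom_mem_inn_iff hm]
  have : Fintype F := Fintype.ofFinite F
  obtain ⟨y, hy⟩ := FiniteField.isSquare_of_char_two (ringChar.eq F 2)
    ((mu (by omega : 0 < m) g : Fˣ) : F)
  have hy0 : y ≠ 0 := by
    rintro rfl
    rw [mul_zero] at hy
    exact (mu (by omega : 0 < m) g).ne_zero hy
  refine ⟨Units.mk0 y hy0, ?_⟩
  ext
  rw [powMonoidHom_apply, Units.val_pow_eq_pow_val, Units.val_mk0, hy, pow_two]

theorem normal_range_cHom (p : ℕ) [Fact p.Prime] [CharP F p] (hm : 2 ≤ m) :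
    (cHom : GS →* AutP).range.Normal := by
  by_cases hp : p = 2
  · subst hp
    rw [range_eq_inn_of_char_two hm]
    infer_instance
  · have : Fintype F := Fintype.ofFinite F
    constructor
    rintro _ ⟨g, rfl⟩ β
    obtain ⟨h, σ, hh, hβ⟩ := Cfsg.Agent.Lib.Helper42AutSpI.aut_induced (p := p) hm (fun _ => hp) β
    have e : β = cHom ⟨h, hh⟩ * fHom σ := by
      rw [← aut_eq]
      exact (induced_iff' ⟨h, hh⟩ σ β).1 hβ
    refine ⟨⟨h, hh⟩ * mapG (σ : F →+* F) g * (⟨h, hh⟩ : GS)⁻¹, ?_⟩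
    rw [map_mul, map_mul, map_inv, e]
    have e2 : (fHom σ : AutP) * cHom g * (fHom σ)⁻¹ = cHom (mapG (σ : F →+* F) g) := by
      rw [fHom_mul_cHom, mul_inv_cancel_right]
    rw [← e2]
    group

end Cfsg.Agent.Lib.Helper42AutSpK
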