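import Mathlib
import Cfsg.Agent.Lib.Helper42AutSpK
import Cfsg.Agent.Lib.Helper50Out

set_option autoImplicit false
open Cfsg

/-! The order of `PΓSp_{2m}(q)` inside `Aut(PSp_{2m}(q))`. (helper42) -/

namespace Cfsg.Agent.Lib.Helper42AutSpCount

open Matrix Cfsg.Agent.Lib.Helper17Symp Cfsg.Agent.Lib.Helper17Symp2 Cfsg.Agent.Lib.Helper7Sp
  Cfsg.Agent.Lib.Helper42AutSpA Cfsg.Agent.Lib.Helper42AutSpG Cfsg.Agent.Lib.Helper42AutSpJ
  Cfsg.Agent.Lib.Helper42AutSpK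

variable {F : Type*} [Field F] {m : ℕ}

local notation "V" => (Fin m ⊕ Fin m → F)
local notation "Sp" => Matrix.symplecticGroup (Fin m) F
local notation "Mat" => Matrix (Fin m ⊕ Fin m) (Fin m ⊕ Fin m) F
local notation "ff" => sympForm m F
local notation "π" => (QuotientGroup.mk : Matrix.symplecticGroup (Fin m) F → Cfsg.PSp m F)
local notation "GS" => { x // x ∈ GSp m F }
local notation "AutP" => MulAut (Cfsg.PSp m F)

variable [Finite F]

theorem conj_injective (hm : 2 ≤ m) :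
    Function.Injective (MulAut.conj : Cfsg.PSp m F →* AutP) := by
  rw [injective_iff_map_eq_one]
  intro x hx
  obtain ⟨s, rfl⟩ := QuotientGroup.mk_surjective x
  have hx' : MulAut.conj (π s) = 1 := hx
  rw [← cHom_toGS] at hx'
  have h1 : toGS s ∈ (cHom : GS →* AutP).ker := hx'
  rw [ker_cHom hm, Subgroup.mem_subgroupOf] at h1
  obtain ⟨c, hc⟩ := (Geo.mem_scalars_iff _).1 h1
  rw [toGS_coe] at hc
  show π s = 1
  rw [QuotientGroup.eq_one_iff, Subgroup.mem_center_iff]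
  intro g
  apply Subtype.ext
  show (g : Mat) * (s : Mat) = (s : Mat) * (g : Mat)
  rw [hc, mul_smul_comm, smul_mul_assoc, mul_one, one_mul]

theorem card_inn (hm : 2 ≤ m) : Nat.card (Cfsg.Inn (Cfsg.PSp m F)) = Nat.card (Cfsg.PSp m F) :=
  Nat.card_congr (MonoidHom.ofInjective (conj_injective hm)).toEquiv.symm

theorem relIndex_inn (hm : 2 ≤ m) :
    (Cfsg.Inn (Cfsg.PSp m F)).relIndex (cHom : GS →* AutP).range = Nat.gcd 2 (Nat.card F - 1) := by
  have hm0 : 0 < m := by omega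
  have : Fintype F := Fintype.ofFinite F
  rw [← Subgroup.index_comap]
  have key : (Cfsg.Inn (Cfsg.PSp m F)).comap (cHom : GS →* AutP)
      = ((powMonoidHom 2 : Fˣ →* Fˣ).range).comap (mu hm0) := by
    ext g
    rw [Subgroup.mem_comap, Subgroup.mem_comap]
    exact cHom_mem_inn_iff hm g
  rw [key, Subgroup.index_comap_of_surjective _ (mu_surjective hm0),
    IsCyclic.index_powMonoidHom_range, Nat.card_units, Nat.gcd_comm]

theorem range_inf_range (hm : 2 ≤ m) :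
    (cHom : GS →* AutP).range ⊓ (fHom : (F ≃+* F) →* AutP).range = ⊥ := by
  rw [eq_bot_iff]
  rintro β ⟨⟨g, hg⟩, ⟨σ, hσ⟩⟩
  have h1 : aut g⁻¹ σ = 1 := by
    rw [aut_eq, map_inv, hg, hσ, inv_mul_cancel]
  have h2 := (aut_eq_one hm _ _ h1).1
  rw [Subgroup.mem_bot, ← hσ, h2, map_one]

/-- the image of `PΓSp` -/
noncomputable def PG (m : ℕ) (F : Type*) [Field F] [Finite F] : Subgroup (MulAut (Cfsg.PSp m F)) :=
  (cHom : { x // x ∈ GSp m F } →* MulAut (Cfsg.PSp m F)).range ⊔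
    (fHom : (F ≃+* F) →* MulAut (Cfsg.PSp m F)).range

theorem mem_PG (p : ℕ) [Fact p.Prime] [CharP F p] (hm : 2 ≤ m) (β : AutP) :
    β ∈ PG m F ↔ ∃ (g : GS) (σ : F ≃+* F), β = aut g σ := by
  have := normal_range_cHom (F := F) p hm
  rw [PG, Subgroup.mem_sup_of_normal_left]
  constructor
  · rintro ⟨_, ⟨g, rfl⟩, _, ⟨σ, rfl⟩, rfl⟩
    exact ⟨g, σ, (aut_eq g σ).symm⟩
  · rintro ⟨g, σ, rfl⟩
    exact ⟨_, ⟨g, rfl⟩, _, ⟨σ, rfl⟩, (aut_eq g σ).symm⟩

theorem relIndex_range_PG (p : ℕ) [Fact p.Prime] [CharP F p] (hm : 2 ≤ m) :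
    (cHom : GS →* AutP).range.relIndex (PG m F) = Nat.card (F ≃+* F) := by
  have := normal_range_cHom (F := F) p hm
  rw [PG, Subgroup.relIndex_sup_left, ← Subgroup.inf_relIndex_right, range_inf_range hm,
    Subgroup.relIndex_bot_left]
  exact Nat.card_congr (MonoidHom.ofInjective (fHom_injective hm)).toEquiv.symm

theorem inn_le_PG : Cfsg.Inn (Cfsg.PSp m F) ≤ PG m F := inn_le_range.trans le_sup_left

theorem relIndex_inn_PG (p : ℕ) [Fact p.Prime] [CharP F p] (hm : 2 ≤ m) :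
    (Cfsg.Inn (Cfsg.PSp m F)).relIndex (PG m F)
      = Nat.gcd 2 (Nat.card F - 1) * Nat.card (F ≃+* F) := by
  have h : (cHom : GS →* AutP).range ≤ PG m F := le_sup_left
  rw [← Subgroup.relIndex_mul_relIndex _ _ _ inn_le_range h,
    relIndex_inn hm, relIndex_range_PG p hm]

theorem card_aut (p : ℕ) [Fact p.Prime] [CharP F p] (hm : 2 ≤ m) :
    Nat.card AutP = (PG m F).index * Nat.gcd 2 (Nat.card F - 1) * Nat.card (F ≃+* F)
      * Nat.card (Cfsg.PSp m F) := by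
  rw [← card_inn hm, ← Subgroup.card_mul_index (Cfsg.Inn (Cfsg.PSp m F)),
    ← Subgroup.relIndex_mul_index (inn_le_PG (m := m) (F := F)), relIndex_inn_PG p hm]
  ring

theorem PG_eq_top (p : ℕ) [Fact p.Prime] [CharP F p] (hm : 2 ≤ m) (h4 : m = 2 → p ≠ 2) :
    PG m F = ⊤ := by
  have : Fintype F := Fintype.ofFinite F
  rw [eq_top_iff]
  intro β _
  rw [mem_PG p hm]
  obtain ⟨h, σ, hh, hβ⟩ := Cfsg.Agent.Lib.Helper42AutSpI.aut_induced (p := p) hm h4 β
  exact ⟨⟨h, hh⟩, σ, (induced_iff' ⟨h, hh⟩ σ β).1 hβ⟩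

end Cfsg.Agent.Lib.Helper42AutSpCount
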