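import Cfsg.Agent.Lib.Helper99Symp
import Cfsg.Agent.Lib.Helper95SpStd

set_option autoImplicit false
set_option linter.unusedSimpArgs false

namespace Cfsg.Agent.Lib.Helper99SympBasis

open Module Submodule Cfsg.Agent.Lib.Helper99Symp Cfsg.Agent.Lib.Helper95SpStd

lemma symp_ll {K : Type*} [Field K] (m : ℕ) (i j : Fin m) :
    Cfsg.sympForm m K (Pi.single (Sum.inl i) 1) (Pi.single (Sum.inl j) 1) = 0 := by
  rw [sympForm_eq]; simp

lemma symp_rr {K : Type*} [Field K] (m : ℕ) (i j : Fin m) :
    Cfsg.sympForm m K (Pi.single (Sum.inr i) 1) (Pi.single (Sum.inr j) 1) = 0 := by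
  rw [sympForm_eq]; simp

lemma symp_lr {K : Type*} [Field K] (m : ℕ) (i j : Fin m) :
    Cfsg.sympForm m K (Pi.single (Sum.inl i) 1) (Pi.single (Sum.inr j) 1) =
      if i = j then -1 else 0 := by
  classical
  rw [sympForm_eq]
  simp only [Pi.single_apply, Sum.inl.injEq, Sum.inr.injEq, reduceCtorEq, if_false, zero_mul, zero_sub,
    mul_ite, mul_one, mul_zero, ite_mul, one_mul]
  rw [Finset.sum_neg_distrib]
  by_cases h : i = j
  · subst h; simp
  · simp [h, Ne.symm h]

lemma symp_rl {K : Type*} [Field K] (m : ℕ) (i j : Fin m) :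
    Cfsg.sympForm m K (Pi.single (Sum.inr i) 1) (Pi.single (Sum.inl j) 1) =
      if i = j then 1 else 0 := by
  classical
  rw [sympForm_eq]
  simp only [Pi.single_apply, Sum.inl.injEq, Sum.inr.injEq, reduceCtorEq, if_false, zero_mul, sub_zero,
    mul_ite, mul_one, mul_zero, ite_mul, one_mul]
  by_cases h : i = j
  · subst h; simp
  · simp [h, Ne.symm h]

/-- A nondegenerate alternating form on `K^(2m)` has a symplectic basis (Gram matrix that of
`Cfsg.sympForm`). -/
theorem exists_symp_basis {K : Type*} [Field K] (m : ℕ)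
    (B : LinearMap.BilinForm K (Fin m ⊕ Fin m → K)) (hA : ∀ v, B v v = 0)
    (hnd : ∀ u, u ≠ 0 → ∃ v, B u v ≠ 0) :
    ∃ b : (Fin m ⊕ Fin m) → (Fin m ⊕ Fin m → K),
      ∀ i j, B (b i) (b j) = Cfsg.sympForm m K (Pi.single i 1) (Pi.single j 1) := by
  classical
  obtain ⟨I, _, g, π, hg, -, -⟩ := exists_sympFamily (B := B) (X := LinearMap.id) (z := 1) hA hnd
    (fun _ _ => rfl) (by simp) (fun v => by simp)
    (fun e f e' f' => e ∈ span K {e', f'} ∧ f ∈ span K {e', f'}) (fun _ _ _ _ h => h)
    (by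
      intro U hU _ hndU
      left
      obtain ⟨u, hu, hu0⟩ := Submodule.exists_mem_ne_zero_of_ne_bot hU
      obtain ⟨v, hv, huv⟩ := hndU u hu hu0
      exact ⟨u, hu, v, hv, huv, subset_span (by simp), subset_span (by simp)⟩)
  have hli := hg.linearIndependent
  have hcard : Fintype.card (I × Bool) = 2 * m := by
    have h1 := finrank_span_eq_card hli
    rw [hg.1, finrank_top] at h1
    rw [← h1]
    simp
    ring
  have hI : Fintype.card I = m := by
    rw [Fintype.card_prod, Fintype.card_bool] at hcard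
    omega
  let σ : Fin m ≃ I := (Fintype.equivFinOfCardEq hI).symm
  have hz : ∀ i s j s', ¬ (i = j ∧ s ≠ s') → B (g i s) (g j s') = 0 := by
    intro i s j s' h
    by_contra hne
    exact h ((hg.2 i s j s').1 hne)
  have hnz : ∀ i, B (g i true) (g i false) ≠ 0 := fun i => (hg.2 i true i false).2 ⟨rfl, by simp⟩
  refine ⟨Sum.elim (fun k => g (σ k) false)
    (fun k => (B (g (σ k) true) (g (σ k) false))⁻¹ • g (σ k) true), ?_⟩
  intro i j
  rcases i with i | i <;> rcases j with j | j
  · simp only [Sum.elim_inl]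
    rw [hz _ _ _ _ (by simp), symp_ll]
  · simp only [Sum.elim_inl, Sum.elim_inr, map_smul, smul_eq_mul]
    rw [symp_lr]
    by_cases hij : i = j
    · subst hij
      rw [skew hA (g (σ i) false) (g (σ i) true), mul_neg, inv_mul_cancel₀ (hnz _), if_pos rfl]
    · rw [hz (σ i) false (σ j) true (by simp [σ.injective.eq_iff, hij]), if_neg hij, mul_zero]
  · simp only [Sum.elim_inl, Sum.elim_inr, map_smul, LinearMap.smul_apply, smul_eq_mul]
    rw [symp_rl]
    by_cases hij : i = j
    · subst hij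
      rw [inv_mul_cancel₀ (hnz _), if_pos rfl]
    · rw [hz (σ i) true (σ j) false (by simp [σ.injective.eq_iff, hij]), if_neg hij, mul_zero]
  · simp only [Sum.elim_inr, map_smul, LinearMap.smul_apply, smul_eq_mul]
    rw [hz (σ i) true (σ j) true (by simp), symp_rr]
    simp

end Cfsg.Agent.Lib.Helper99SympBasis
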