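import Mathlib
import Cfsg.Agent.Lib.Helper42AutSpK
import Cfsg.Agent.Lib.Helper42H90
import Cfsg.Agent.Lib.Helper99SympBasis

set_option autoImplicit false
open Cfsg

/-! Hilbert 90 for `GSp` and the conjugacy of field-type automorphisms of `PSp`. (helper42) -/

namespace Cfsg.Agent.Lib.Helper42AutSpL

open Matrix Cfsg.Agent.Lib.Helper17Symp Cfsg.Agent.Lib.Helper17Symp2 Cfsg.Agent.Lib.Helper7Sp
  Cfsg.Agent.Lib.Helper42AutSpA Cfsg.Agent.Lib.Helper42AutSpG Cfsg.Agent.Lib.Helper42AutSpJ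
  Cfsg.Agent.Lib.Helper42AutSpK Cfsg.Agent.Lib.Helper42H90

variable {F : Type*} [Field F] {m : ℕ}

local notation "V" => (Fin m ⊕ Fin m → F)
local notation "Sp" => Matrix.symplecticGroup (Fin m) F
local notation "Mat" => Matrix (Fin m ⊕ Fin m) (Fin m ⊕ Fin m) F
local notation "ff" => sympForm m F
local notation "π" => (QuotientGroup.mk : Matrix.symplecticGroup (Fin m) F → Cfsg.PSp m F)
local notation "GS" => { x // x ∈ GSp m F }
local notation "AutP" => MulAut (Cfsg.PSp m F)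
local notation "JJ" => Matrix.J (Fin m) F

theorem gram_eq (hm : 0 < m) (g : GS) : (g.1 : Mat)ᵀ * JJ * (g.1 : Mat) = (mu hm g : F) • JJ := by
  ext i k
  rw [Helper42AutSpJ.gram_apply, mu_spec hm, Matrix.smul_apply, J_apply, smul_eq_mul]

theorem map_mul' (σ : F ≃+* F) (A B : Mat) : (A * B).map σ = A.map σ * B.map σ :=
  Matrix.map_mul (f := (σ : F →+* F))

theorem J_map' (σ : F ≃+* F) : (JJ).map σ = JJ := J_map (σ : F →+* F)

/-- a matrix with Gram matrix `c J` is conformal symplectic -/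
theorem exists_GS_of_gram (A : Mat) {c : F} (hc : c ≠ 0) (h : Aᵀ * JJ * A = c • JJ) :
    ∃ g : GS, (g.1 : Mat) = A := by
  have hdet : A.det ≠ 0 := by
    intro h0
    have h1 := congrArg Matrix.det h
    rw [Matrix.det_mul, Matrix.det_mul, h0, mul_zero, Matrix.det_smul] at h1
    have h2 : (JJ).det ≠ 0 := (Matrix.isUnit_det_J (Fin m) F).ne_zero
    exact mul_ne_zero (pow_ne_zero _ hc) h2 h1.symm
  refine ⟨⟨Matrix.GeneralLinearGroup.mkOfDetNeZero A hdet, ?_⟩, rfl⟩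
  rw [mem_GSp_iff]
  exact ⟨Units.mk0 c hc, h⟩

theorem hilbert90_GSp [Finite F] (hm : 0 < m) (σ : F ≃+* F) (r : ℕ) (hr : orderOf σ = r)
    (hr0 : 0 < r) {F₀ : Type*} [Field F₀] (j : F₀ →+* F) (hj : ∀ a, σ a = a ↔ a ∈ Set.range j)
    (g : GS) (z : F) (hN : NkM σ (g.1 : Mat) r = z • 1) :
    ∃ (c : Fˣ) (h : GS), scalG c * g * mapG (σ : F →+* F) h = h := by
  have hgg : (g.1 : Mat) * ((g.1⁻¹ : GL (Fin m ⊕ Fin m) F) : Mat) = 1 := by
    rw [← Units.val_mul, mul_inv_cancel, Units.val_one]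
  obtain ⟨c, M, M', hc, e1, e2, e3⟩ :=
    hilbert90_PGL σ r hr hr0 (g.1 : Mat) _ hgg (Sum.inl ⟨0, hm⟩) z hN
  obtain ⟨g1, hg1⟩ : ∃ g1 : GS, g1 = scalG (Units.mk0 c hc) * g := ⟨_, rfl⟩
  have hg1c : (g1.1 : Mat) = c • (g.1 : Mat) := by
    rw [hg1]
    show (((scalG (Units.mk0 c hc) : GS).1 : GL (Fin m ⊕ Fin m) F) : Mat) * (g.1 : Mat) = _
    rw [scalG_coe, Units.val_mk0, smul_mul_assoc, one_mul]
  rw [← hg1c] at e3
  obtain ⟨c1, hc1⟩ : ∃ c1 : F, c1 = (mu hm g1 : F) := ⟨_, rfl⟩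
  have hc10 : c1 ≠ 0 := by rw [hc1]; exact (mu hm g1).ne_zero
  obtain ⟨K, hK⟩ : ∃ K : Mat, K = Mᵀ * JJ * M := ⟨_, rfl⟩
  have hKσ : K = c1 • K.map σ := by
    have h1 : K.map σ = (M.map σ)ᵀ * JJ * M.map σ := by
      rw [hK, map_mul', map_mul', J_map', Matrix.transpose_map]
    rw [h1, hK]
    conv_lhs => rw [← e3]
    rw [Matrix.transpose_mul]
    calc (M.map σ)ᵀ * (g1.1 : Mat)ᵀ * JJ * ((g1.1 : Mat) * M.map σ)
        = (M.map σ)ᵀ * ((g1.1 : Mat)ᵀ * JJ * (g1.1 : Mat)) * M.map σ := by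
          simp only [mul_assoc]
      _ = _ := by
          rw [gram_eq hm, ← hc1, mul_smul_comm, smul_mul_assoc]
  have hdetM : M.det ≠ 0 := by
    intro h0
    have := congrArg Matrix.det e1
    rw [Matrix.det_mul, h0, zero_mul, Matrix.det_one] at this
    exact zero_ne_one this
  have hdetJ : (JJ).det ≠ 0 := (Matrix.isUnit_det_J (Fin m) F).ne_zero
  have hdetK : K.det ≠ 0 := by
    rw [hK, Matrix.det_mul, Matrix.det_mul, Matrix.det_transpose]
    exact mul_ne_zero (mul_ne_zero hdetM hdetJ) hdetM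
  obtain ⟨a, b, hab⟩ : ∃ a b, K a b ≠ 0 := by
    by_contra hcon
    push Not at hcon
    have : K = 0 := by ext a b; exact hcon a b
    have hne : Nonempty (Fin m ⊕ Fin m) := ⟨Sum.inl ⟨0, hm⟩⟩
    rw [this, Matrix.det_zero] at hdetK
    exact hdetK rfl
  obtain ⟨κ, hκ⟩ : ∃ κ, κ = K a b := ⟨_, rfl⟩
  rw [← hκ] at hab
  have hentry : ∀ x y, K x y = c1 * σ (K x y) := fun x y => by
    conv_lhs => rw [hKσ]
    rfl
  have hfix : ∀ x y, σ (κ⁻¹ * K x y) = κ⁻¹ * K x y := by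
    intro x y
    have h1 := hentry x y
    have h2 := hentry a b
    rw [← hκ] at h2
    have h3 : σ κ ≠ 0 := (map_ne_zero σ).2 hab
    have h4 : σ (K x y) = c1⁻¹ * K x y := by
      conv_rhs => rw [h1]
      field_simp
    have h5 : σ κ = c1⁻¹ * κ := by
      conv_rhs => rw [h2]
      field_simp
    rw [map_mul, map_inv₀, h4, h5]
    field_simp
  choose K₀ hK₀ using fun x y => (hj _).1 (hfix x y)
  let B : LinearMap.BilinForm F₀ (Fin m ⊕ Fin m → F₀) := Matrix.toBilin' (Matrix.of K₀)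
  have hB : ∀ u v, j (B u v) = κ⁻¹ * ff (M *ᵥ (j ∘ u)) (M *ᵥ (j ∘ v)) := by
    intro u v
    rw [ff_mulVec, ← hK]
    show j (Matrix.toBilin' (Matrix.of K₀) u v) = _
    rw [Matrix.toBilin'_apply', RingHom.map_dotProduct]
    have h1 : j ∘ (Matrix.of K₀ *ᵥ v) = (κ⁻¹ • K) *ᵥ (j ∘ v) := by
      funext x
      have := RingHom.map_mulVec j (Matrix.of K₀) v x
      show j ((Matrix.of K₀ *ᵥ v) x) = _
      rw [this]
      congr 2
      ext x y
      exact hK₀ x y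
    rw [h1, smul_mulVec, dotProduct_smul, smul_eq_mul]
  have hA : ∀ v, B v v = 0 := by
    intro v
    apply j.injective
    rw [hB, sympForm_self, mul_zero, map_zero]
  have hdetK₀ : (Matrix.of K₀).det ≠ 0 := by
    intro h0
    have h1 : ((Matrix.of K₀).map j).det = 0 := by
      rw [← RingHom.mapMatrix_apply, ← RingHom.map_det, h0, map_zero]
    have h2 : (Matrix.of K₀).map j = κ⁻¹ • K := by
      ext x y
      exact hK₀ x y
    rw [h2, Matrix.det_smul] at h1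
    exact mul_ne_zero (pow_ne_zero _ (inv_ne_zero hab)) hdetK h1
  have hnd : ∀ u, u ≠ 0 → ∃ v, B u v ≠ 0 := by
    intro u hu
    obtain ⟨w, hw⟩ := (Matrix.nondegenerate_of_det_ne_zero hdetK₀).exists_not_ortho_of_ne_zero hu
    refine ⟨w, ?_⟩
    show Matrix.toBilin' (Matrix.of K₀) u w ≠ 0
    rw [Matrix.toBilin'_apply']
    exact hw
  obtain ⟨bs, hbs⟩ := Cfsg.Agent.Lib.Helper99SympBasis.exists_symp_basis m B hA hnd
  let k : Mat := Matrix.of (fun x y => j (bs y x))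
  have hk : ∀ i, k *ᵥ Pi.single i 1 = j ∘ bs i := by
    intro i
    funext x
    simp [k]
  have hkσ : k.map σ = k := by
    ext x y
    exact (hj _).2 ⟨_, rfl⟩
  have hgram : (M * k)ᵀ * JJ * (M * k) = κ • JJ := by
    ext i i'
    rw [Helper42AutSpJ.gram_apply, ← mulVec_mulVec, ← mulVec_mulVec, hk, hk, Matrix.smul_apply, smul_eq_mul]
    have h1 := hB (bs i) (bs i')
    rw [hbs, ← J_apply] at h1
    have h2 : j (Matrix.J (Fin m) F₀ i i') = JJ i i' := by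
      rw [← J_map j]; rfl
    rw [h2] at h1
    rw [h1]
    field_simp
  obtain ⟨h, hh⟩ := exists_GS_of_gram (M * k) hab hgram
  refine ⟨Units.mk0 c hc, h, ?_⟩
  rw [← hg1]
  apply Subtype.ext
  apply Units.ext
  show (g1.1 : Mat) * (h.1 : Mat).map σ = (h.1 : Mat)
  rw [hh, map_mul', hkσ, ← mul_assoc, e3]

variable [Finite F]

/-- partial norms in `GSp` -/
noncomputable def NkG (σ : F ≃+* F) (g : GS) : ℕ → GS
  | 0 => 1
  | k + 1 => g * mapG (σ : F →+* F) (NkG σ g k)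

theorem NkG_coe (σ : F ≃+* F) (g : GS) (k : ℕ) : ((NkG σ g k).1 : Mat) = NkM σ (g.1 : Mat) k := by
  induction k with
  | zero => rfl
  | succ k ih =>
    show (g.1 : Mat) * ((NkG σ g k).1 : Mat).map σ = (g.1 : Mat) * (NkM σ (g.1 : Mat) k).map σ
    rw [ih]

theorem pow_cHom_fHom (σ : F ≃+* F) (g : GS) (k : ℕ) :
    (cHom g * fHom σ : AutP) ^ k = cHom (NkG σ g k) * fHom σ ^ k := by
  induction k with
  | zero => simp [NkG]
  | succ k ih =>
    rw [pow_succ', ih, NkG, map_mul, pow_succ']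
    calc cHom g * fHom σ * (cHom (NkG σ g k) * fHom σ ^ k)
        = cHom g * (fHom σ * cHom (NkG σ g k)) * fHom σ ^ k := by simp only [mul_assoc]
      _ = _ := by rw [fHom_mul_cHom]; simp only [mul_assoc]

theorem conj_of_twist (t : AutP) (g h h' : GS) (ht : t * cHom h = cHom h' * t)
    (hg : (cHom g : AutP) = cHom (h * h'⁻¹)) : cHom g * t = cHom h * t * (cHom h : AutP)⁻¹ := by
  rw [hg, map_mul, map_inv]
  have : (cHom h' : AutP)⁻¹ * t = t * (cHom h)⁻¹ := by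
    rw [inv_mul_eq_iff_eq_mul, ← mul_assoc, ← ht, mul_inv_cancel_right]
  rw [mul_assoc, this, mul_assoc]

theorem field_conj (hm : 2 ≤ m) (σ : F ≃+* F) (r : ℕ) (hr : orderOf σ = r) (hr0 : 0 < r)
    (g : GS) (h1 : (cHom g * fHom σ : AutP) ^ r = 1) :
    ∃ h : GS, (cHom g * fHom σ : AutP) = cHom h * fHom σ * (cHom h)⁻¹ := by
  rw [pow_cHom_fHom, ← map_pow, ← aut_eq] at h1
  obtain ⟨z, hz⟩ := (Geo.mem_scalars_iff _).1 (aut_eq_one hm _ _ h1).2
  rw [NkG_coe] at hz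
  let F₀ := (σ : F →+* F).eqLocusField (RingHom.id F)
  have hj : ∀ a, σ a = a ↔ a ∈ Set.range F₀.subtype := by
    intro a
    constructor
    · intro ha
      exact ⟨⟨a, ha⟩, rfl⟩
    · rintro ⟨b, rfl⟩
      exact b.2
  obtain ⟨c, h, e⟩ := hilbert90_GSp (by omega) σ r hr hr0 F₀.subtype hj g z hz
  refine ⟨h, conj_of_twist _ g h _ (fHom_mul_cHom σ h) ?_⟩
  have e2 : h * (mapG (σ : F →+* F) h)⁻¹ = scalG c * g := by
    rw [mul_inv_eq_iff_eq_mul, e]
  rw [e2, map_mul, cHom_scalar _ (scalG_mem c), one_mul]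

end Cfsg.Agent.Lib.Helper42AutSpL
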