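import Mathlib
import Cfsg.Agent.Lib.Helper42AutSpL
import Cfsg.Agent.Lib.Helper50Cent

set_option autoImplicit false
open Cfsg

/-! Centralisers of field automorphisms of `PSp` in `PGSp` and class splitting. (helper42) -/

namespace Cfsg.Agent.Lib.Helper42AutSpM

open Matrix Cfsg.Agent.Lib.Helper17Symp Cfsg.Agent.Lib.Helper17Symp2 Cfsg.Agent.Lib.Helper7Sp
  Cfsg.Agent.Lib.Helper42AutSpA Cfsg.Agent.Lib.Helper42AutSpG Cfsg.Agent.Lib.Helper42AutSpJ
  Cfsg.Agent.Lib.Helper42AutSpK Cfsg.Agent.Lib.Helper42AutSpL Cfsg.Agent.Lib.Helper50Split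

variable {F : Type*} [Field F] {m : ℕ}

local notation "V" => (Fin m ⊕ Fin m → F)
local notation "Sp" => Matrix.symplecticGroup (Fin m) F
local notation "Mat" => Matrix (Fin m ⊕ Fin m) (Fin m ⊕ Fin m) F
local notation "ff" => sympForm m F
local notation "π" => (QuotientGroup.mk : Matrix.symplecticGroup (Fin m) F → Cfsg.PSp m F)
local notation "GS" => { x // x ∈ GSp m F }
local notation "AutP" => MulAut (Cfsg.PSp m F)
local notation "JJ" => Matrix.J (Fin m) F

theorem J_inr_inl (hm : 0 < m) : JJ (Sum.inr ⟨0, hm⟩) (Sum.inl ⟨0, hm⟩) = 1 := by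
  rw [J_apply, sympForm_single_inl]; simp

theorem mu_mapG {K : Type*} [Field K] (hm : 0 < m) (j : K →+* F) (h : { x // x ∈ GSp m K }) :
    mu hm (mapG j h) = Units.map (j : K →* F) (mu hm h) := by
  have h1 := gram_eq hm (mapG j h)
  have h2 := congrArg (fun A : Matrix (Fin m ⊕ Fin m) (Fin m ⊕ Fin m) K => A.map j) (gram_eq hm h)
  simp only [Matrix.map_mul] at h2
  rw [J_map, Matrix.transpose_map] at h2
  rw [mapG_coe, h2] at h1
  have h3 := congrFun (congrFun h1 (Sum.inr ⟨0, hm⟩)) (Sum.inl ⟨0, hm⟩)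
  simp only [Matrix.map_apply, Matrix.smul_apply, smul_eq_mul, map_mul] at h3
  rw [J_inr_inl, J_inr_inl, map_one, mul_one, mul_one] at h3
  ext
  exact h3.symm

theorem mapG_scalG_mem (σ : F ≃+* F) (c : Fˣ) :
    (mapG (σ : F →+* F) (scalG (m := m) c)).1 ∈ Geo.scalars (Fin m ⊕ Fin m) F := by
  rw [Geo.mem_scalars_iff]
  refine ⟨Units.map (σ : F →* F) c, ?_⟩
  rw [mapG_coe, scalG_coe]
  ext a b
  by_cases hab : a = b
  · subst hab; simp
  · simp [hab]

section field

variable {F₀ : Type*} [Field F₀]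

/-- a `σ`-fixed conformal symplectic matrix comes from the fixed field -/
theorem exists_descent (hm : 0 < m) (σ : F ≃+* F) (j : F₀ →+* F)
    (hj : ∀ a, σ a = a ↔ a ∈ Set.range j) (g : GS) (hg : (g.1 : Mat).map σ = (g.1 : Mat)) :
    ∃ h : { x // x ∈ GSp m F₀ }, mapG j h = g := by
  choose h₀ hh₀ using fun a b => (hj _).1 (congrFun (congrFun hg a) b)
  have hmap : (Matrix.of h₀).map j = (g.1 : Mat) := by
    ext a b
    exact hh₀ a b
  have hfix : σ (mu hm g : F) = (mu hm g : F) := by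
    have h1 := congrArg (fun A : Mat => A.map σ) (gram_eq hm g)
    simp only [map_mul'] at h1
    rw [J_map', Matrix.transpose_map, hg, gram_eq hm g] at h1
    have h3 := congrFun (congrFun h1 (Sum.inr ⟨0, hm⟩)) (Sum.inl ⟨0, hm⟩)
    simp only [Matrix.map_apply, Matrix.smul_apply, smul_eq_mul, map_mul] at h3
    rw [J_inr_inl, map_one, mul_one, mul_one] at h3
    exact h3.symm
  obtain ⟨c₀, hc₀⟩ := (hj _).1 hfix
  have hc₀0 : c₀ ≠ 0 := by
    rintro rfl
    rw [map_zero] at hc₀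
    exact (mu hm g).ne_zero hc₀.symm
  have hgram : (Matrix.of h₀)ᵀ * Matrix.J (Fin m) F₀ * Matrix.of h₀ = c₀ • Matrix.J (Fin m) F₀ := by
    apply Matrix.map_injective j.injective
    show ((Matrix.of h₀)ᵀ * Matrix.J (Fin m) F₀ * Matrix.of h₀).map j
      = (c₀ • Matrix.J (Fin m) F₀).map j
    rw [Matrix.map_mul, Matrix.map_mul, J_map, Matrix.transpose_map, hmap, gram_eq hm g, ← hc₀]
    ext a b
    simp only [Matrix.map_apply, Matrix.smul_apply, smul_eq_mul, map_mul]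
    rw [← J_map j]
    rfl
  obtain ⟨h, hh⟩ := exists_GS_of_gram _ hc₀0 hgram
  refine ⟨h, ?_⟩
  apply Subtype.ext
  apply Units.ext
  rw [mapG_coe, hh, hmap]

theorem mapG_fixed (σ : F ≃+* F) (j : F₀ →+* F) (hj : ∀ a, σ a = a ↔ a ∈ Set.range j)
    (h : { x // x ∈ GSp m F₀ }) : mapG (σ : F →+* F) (mapG j h) = mapG j h := by
  apply Subtype.ext
  apply Units.ext
  ext a b
  exact (hj _).2 ⟨_, rfl⟩

variable [Finite F]

theorem field_cent_char (hm : 2 ≤ m) (σ : F ≃+* F) (j : F₀ →+* F)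
    (hj : ∀ a, σ a = a ↔ a ∈ Set.range j) (g : GS) :
    cHom g ∈ Subgroup.centralizer {(fHom σ : AutP)} ↔
      ∃ (μ : Fˣ) (h : { x // x ∈ GSp m F₀ }), scalG μ * g = mapG j h := by
  have hm0 : 0 < m := by omega
  rw [Subgroup.mem_centralizer_singleton_iff]
  constructor
  · intro h
    have h1 : (cHom g : AutP) = cHom (mapG (σ : F →+* F) g) :=
      mul_right_cancel (h.trans (fHom_mul_cHom σ g))
    have h2 : mapG (σ : F →+* F) g * g⁻¹ ∈ (cHom : GS →* AutP).ker := by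
      rw [MonoidHom.mem_ker, map_mul, map_inv, ← h1, mul_inv_cancel]
    rw [ker_cHom hm, Subgroup.mem_subgroupOf] at h2
    obtain ⟨z, hz⟩ := eq_scalG h2
    have h3 : mapG (σ : F →+* F) g = scalG z * g := by rw [← hz, inv_mul_cancel_right]
    have h4 : (g.1 : Mat).map σ = (z : F) • (g.1 : Mat) := by
      have := congrArg (fun x : GS => ((x.1 : GL (Fin m ⊕ Fin m) F) : Mat)) h3
      simp only [mapG_coe] at this
      refine Eq.trans this ?_
      show (((scalG z : GS).1 : GL (Fin m ⊕ Fin m) F) : Mat) * (g.1 : Mat) = _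
      rw [scalG_coe, smul_mul_assoc, one_mul]
    obtain ⟨a, b, hab⟩ : ∃ a b, (g.1 : Mat) a b ≠ 0 := by
      by_contra hcon
      push Not at hcon
      have h0 : (g.1 : Mat) = 0 := by ext a b; exact hcon a b
      have h5 := gl_inv_mulVec g.1 (Pi.single (Sum.inl ⟨0, hm0⟩) 1 : V)
      rw [h0, zero_mulVec] at h5
      exact Cfsg.Agent.Lib.Helper42AutSpF.single_ne_zero _ h5.symm
    have hentry : ∀ x y, σ ((g.1 : Mat) x y) = (z : F) * (g.1 : Mat) x y :=
      fun x y => congrFun (congrFun h4 x) y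
    obtain ⟨κ, hκ⟩ : ∃ κ, κ = (g.1 : Mat) a b := ⟨_, rfl⟩
    rw [← hκ] at hab
    have hfix : (((scalG (Units.mk0 κ⁻¹ (inv_ne_zero hab)) * g : GS).1 : GL (Fin m ⊕ Fin m) F)
        : Mat).map σ = (((scalG (Units.mk0 κ⁻¹ (inv_ne_zero hab)) * g : GS).1
          : GL (Fin m ⊕ Fin m) F) : Mat) := by
      have e : (((scalG (Units.mk0 κ⁻¹ (inv_ne_zero hab)) * g : GS).1 : GL (Fin m ⊕ Fin m) F)
          : Mat) = κ⁻¹ • (g.1 : Mat) := by
        show (((scalG (Units.mk0 κ⁻¹ (inv_ne_zero hab)) : GS).1 : GL (Fin m ⊕ Fin m) F) : Mat)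
          * (g.1 : Mat) = _
        rw [scalG_coe, smul_mul_assoc, one_mul, Units.val_mk0]
      rw [e]
      ext x y
      simp only [Matrix.map_apply, Matrix.smul_apply, smul_eq_mul, map_mul, map_inv₀]
      have h6 := hentry a b
      rw [← hκ] at h6
      rw [hentry, h6]
      have hz0 := z.ne_zero
      field_simp
    obtain ⟨h', hh'⟩ := exists_descent hm0 σ j hj _ hfix
    exact ⟨_, h', hh'.symm⟩
  · rintro ⟨μ, h, e⟩
    have h1 : mapG (σ : F →+* F) (scalG μ * g) = scalG μ * g := by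
      rw [e, mapG_fixed σ j hj]
    have h2 := congrArg (cHom : GS →* AutP) h1
    rw [map_mul, map_mul, map_mul, cHom_scalar _ (mapG_scalG_mem σ μ),
      cHom_scalar _ (scalG_mem μ), one_mul, one_mul] at h2
    rw [fHom_mul_cHom, h2]

theorem mapG_mem_scalars_iff (hm : 0 < m) (j : F₀ →+* F) (h : { x // x ∈ GSp m F₀ }) :
    (mapG j h).1 ∈ Geo.scalars (Fin m ⊕ Fin m) F ↔ h.1 ∈ Geo.scalars (Fin m ⊕ Fin m) F₀ := by
  rw [Geo.mem_scalars_iff, Geo.mem_scalars_iff]
  constructor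
  · rintro ⟨z, hz⟩
    rw [mapG_coe] at hz
    have e : ∀ a b, j ((h.1 : Matrix (Fin m ⊕ Fin m) (Fin m ⊕ Fin m) F₀) a b)
        = ((z : F) • (1 : Mat)) a b := fun a b => congrFun (congrFun hz a) b
    let k0 : Fin m ⊕ Fin m := Sum.inl ⟨0, hm⟩
    have hne : (h.1 : Matrix (Fin m ⊕ Fin m) (Fin m ⊕ Fin m) F₀) k0 k0 ≠ 0 := by
      intro h0
      have := e k0 k0
      rw [h0, map_zero] at this
      simp at this
      exact z.ne_zero this.symm
    refine ⟨Units.mk0 _ hne, ?_⟩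
    ext a b
    apply j.injective
    rw [e]
    by_cases hab : a = b
    · subst hab
      have := e k0 k0
      simp only [Matrix.smul_apply, Matrix.one_apply_eq, smul_eq_mul, mul_one, Units.val_mk0] at this ⊢
      exact this.symm
    · simp [hab]
  · rintro ⟨w, hw⟩
    refine ⟨Units.map (j : F₀ →* F) w, ?_⟩
    rw [mapG_coe, hw]
    ext a b
    by_cases hab : a = b
    · subst hab; simp
    · simp [hab]

theorem field_centralizer_equiv (hm : 2 ≤ m) (σ : F ≃+* F) (j : F₀ →+* F)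
    (hj : ∀ a, σ a = a ↔ a ∈ Set.range j) :
    Nonempty (↥((cHom : GS →* AutP).range ⊓ Subgroup.centralizer {(fHom σ : AutP)})
      ≃* PGSp m F₀) := by
  let Ψ : { x // x ∈ GSp m F₀ } →* AutP := cHom.comp (mapG j)
  have hrange : Ψ.range = (cHom : GS →* AutP).range ⊓ Subgroup.centralizer {(fHom σ : AutP)} := by
    ext y
    constructor
    · rintro ⟨h, rfl⟩
      refine ⟨⟨_, rfl⟩, ?_⟩
      show cHom _ ∈ Subgroup.centralizer _
      rw [field_cent_char hm σ j hj]
      refine ⟨1, h, ?_⟩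
      have : scalG (m := m) (1 : Fˣ) = 1 := by
        apply Subtype.ext
        apply Units.ext
        rw [scalG_coe, Units.val_one, one_smul]
        rfl
      rw [this, one_mul]
    · rintro ⟨⟨g, rfl⟩, hg⟩
      obtain ⟨μ, h, e⟩ := (field_cent_char hm σ j hj g).1 hg
      refine ⟨h, ?_⟩
      show cHom (mapG j h) = cHom g
      rw [← e, map_mul, cHom_scalar _ (scalG_mem μ), one_mul]
  have hker : Ψ.ker = (Geo.scalars (Fin m ⊕ Fin m) F₀).subgroupOf (GSp m F₀) := by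
    ext h
    rw [MonoidHom.mem_ker, Subgroup.mem_subgroupOf, ← mapG_mem_scalars_iff (by omega) j h]
    have := ker_cHom (F := F) hm
    have h2 : mapG j h ∈ (cHom : GS →* AutP).ker ↔
        (mapG j h).1 ∈ Geo.scalars (Fin m ⊕ Fin m) F := by rw [this, Subgroup.mem_subgroupOf]
    exact h2
  exact ⟨(((QuotientGroup.quotientMulEquivOfEq hker.symm).trans
    (QuotientGroup.quotientKerEquivRange Ψ)).trans (MulEquiv.subgroupCongr hrange)).symm⟩

end field

/-- the class splitting number in terms of multipliers of the centraliser -/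
theorem split_count [Fintype F] (hm : 2 ≤ m) (t : AutP) (E : Subgroup Fˣ)
    (hE : ∀ g : GS, cHom g ∈ Subgroup.centralizer {t} →
      mu (by omega : 0 < m) g ∈ (powMonoidHom 2 : Fˣ →* Fˣ).range ⊔ E)
    (hE' : ∀ a ∈ E, ∃ g : GS, cHom g ∈ Subgroup.centralizer {t} ∧ mu (by omega : 0 < m) g = a) :
    Cfsg.splitClassCount (Cfsg.inndiagPSp m F) (Cfsg.Inn (Cfsg.PSp m F)) t
      = Nat.gcd 2 E.index := by
  have hm0 : 0 < m := by omega
  rw [inndiag_eq, splitClassCount_eq _ _ inn_le_range, ← Subgroup.index_comap]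
  have key : (Cfsg.Inn (Cfsg.PSp m F) ⊔
      ((cHom : GS →* AutP).range ⊓ Subgroup.centralizer {t})).comap cHom
      = ((powMonoidHom 2 : Fˣ →* Fˣ).range ⊔ E).comap (mu hm0) := by
    ext g
    rw [Subgroup.mem_comap, Subgroup.mem_comap, Subgroup.mem_sup_of_normal_left]
    constructor
    · rintro ⟨i, hi, c, ⟨⟨g₂, rfl⟩, hc⟩, e⟩
      have h1 : cHom (g * g₂⁻¹) = i := by
        rw [map_mul, map_inv, ← e, mul_inv_cancel_right]
      rw [← h1, cHom_mem_inn_iff hm] at hi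
      have h2 : mu hm0 g = mu hm0 (g * g₂⁻¹) * mu hm0 g₂ := by
        rw [← map_mul, inv_mul_cancel_right]
      rw [h2]
      exact mul_mem (Subgroup.mem_sup_left hi) (hE g₂ hc)
    · intro h
      obtain ⟨a, ha, b, hb, e⟩ := Subgroup.mem_sup.1 h
      obtain ⟨g₂, hg₂, rfl⟩ := hE' b hb
      refine ⟨cHom (g * g₂⁻¹), ?_, cHom g₂, ⟨⟨g₂, rfl⟩, hg₂⟩, ?_⟩
      · rw [cHom_mem_inn_iff hm, map_mul, map_inv, ← e, mul_inv_cancel_right]
        exact ha
      · rw [← map_mul, inv_mul_cancel_right]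
  rw [key, Subgroup.index_comap_of_surjective _ (mu_surjective hm0), index_range_pow_sup]

theorem field_split_count [Fintype F] {F₀ : Type*} [Field F₀] [Fintype F₀] (hm : 2 ≤ m)
    (σ : F ≃+* F) (j : F₀ →+* F) (hj : ∀ a, σ a = a ↔ a ∈ Set.range j) :
    Cfsg.splitClassCount (Cfsg.inndiagPSp m F) (Cfsg.Inn (Cfsg.PSp m F)) (fHom σ)
      = Nat.gcd 2 ((Fintype.card F - 1) / (Fintype.card F₀ - 1)) := by
  have hm0 : 0 < m := by omega
  rw [split_count hm (fHom σ) (Units.map (j : F₀ →* F)).range]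
  · congr 1
    have h1 := Subgroup.card_mul_index (Units.map (j : F₀ →* F)).range
    have hinj : Function.Injective (Units.map (j : F₀ →* F)) := Units.map_injective j.injective
    rw [Nat.card_congr (MonoidHom.ofInjective hinj).symm.toEquiv, Nat.card_units, Nat.card_units,
      Nat.card_eq_fintype_card, Nat.card_eq_fintype_card] at h1
    have h0 : 0 < Fintype.card F₀ - 1 := by
      have := Fintype.one_lt_card (α := F₀)
      omega
    rw [← h1, Nat.mul_div_cancel_left _ h0]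
  · intro g hg
    obtain ⟨μ, h, e⟩ := (field_cent_char hm σ j hj g).1 hg
    have e1 := congrArg (mu hm0) e
    rw [map_mul, mu_scalG, mu_mapG] at e1
    have e2 : mu hm0 g = (μ⁻¹) ^ 2 * Units.map (j : F₀ →* F) (mu hm0 h) := by
      rw [← e1, inv_pow, inv_mul_cancel_left]
    rw [e2]
    exact Subgroup.mul_mem_sup ⟨μ⁻¹, rfl⟩ ⟨_, rfl⟩
  · rintro _ ⟨b, rfl⟩
    obtain ⟨h, rfl⟩ := mu_surjective (F := F₀) hm0 b
    refine ⟨mapG j h, ?_, mu_mapG hm0 j h⟩
    rw [field_cent_char hm σ j hj]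
    refine ⟨1, h, ?_⟩
    have : scalG (m := m) (1 : Fˣ) = 1 := by
      apply Subtype.ext
      apply Units.ext
      rw [scalG_coe, Units.val_one, one_smul]
      rfl
    rw [this, one_mul]

/-! ### arithmetic -/

theorem geom_mod_two_odd {q : ℕ} (hq : q % 2 = 1) (r : ℕ) :
    (∑ i ∈ Finset.range r, q ^ i) % 2 = r % 2 := by
  induction r with
  | zero => simp
  | succ r ih =>
    rw [Finset.sum_range_succ, Nat.add_mod, ih, Nat.pow_mod, hq, one_pow]
    omega

theorem geom_mod_two_even {q : ℕ} (hq : q % 2 = 0) {r : ℕ} (hr : 0 < r) :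
    (∑ i ∈ Finset.range r, q ^ i) % 2 = 1 := by
  obtain ⟨k, rfl⟩ : ∃ k, r = k + 1 := ⟨r - 1, by omega⟩
  rw [Finset.sum_range_succ', pow_zero]
  have : (∑ i ∈ Finset.range k, q ^ (i + 1)) % 2 = 0 := by
    apply Nat.mod_eq_zero_of_dvd
    apply Finset.dvd_sum
    intro i _
    exact (Nat.dvd_of_mod_eq_zero hq).trans (dvd_pow_self q (by omega))
  omega

theorem gcd_arith {p f r : ℕ} (hp : p.Prime) (hr : 0 < r) (hrf : r ∣ f) (hf : 1 ≤ f) :
    Nat.gcd 2 ((p ^ f - 1) / (p ^ (f / r) - 1)) = Nat.gcd (Nat.gcd 2 (p ^ f - 1)) r := by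
  obtain ⟨k, rfl⟩ := hrf
  have hk : 0 < k := by
    rcases Nat.eq_zero_or_pos k with h | h
    · subst h; omega
    · exact h
  rw [Nat.mul_div_cancel_left _ hr]
  have h2 : 2 ≤ p ^ k := by
    calc 2 ≤ p := hp.two_le
      _ = p ^ 1 := (pow_one p).symm
      _ ≤ p ^ k := Nat.pow_le_pow_right hp.pos hk
  have h3 : p ^ (r * k) = (p ^ k) ^ r := by rw [← pow_mul, mul_comm]
  rw [h3, ← Nat.geomSum_eq h2 r]
  rcases hp.eq_two_or_odd with h | h
  · have hq : (p ^ k) % 2 = 0 := by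
      rw [h]
      exact Nat.mod_eq_zero_of_dvd (dvd_pow_self 2 (by omega))
    have h4 := geom_mod_two_even hq hr
    have h5 : ((p ^ k) ^ r - 1) % 2 = 1 := by
      have h6 : ((p ^ k) ^ r) % 2 = 0 :=
        Nat.mod_eq_zero_of_dvd ((Nat.dvd_of_mod_eq_zero hq).trans (dvd_pow_self _ (by omega)))
      have h7 : 0 < (p ^ k) ^ r := by positivity
      omega
    rw [Nat.gcd_rec 2, h4, Nat.gcd_rec 2 ((p ^ k) ^ r - 1), h5]
    simp
  · have hq : (p ^ k) % 2 = 1 := by simp [Nat.pow_mod, h]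
    have h4 := geom_mod_two_odd hq r
    have h5 : ((p ^ k) ^ r - 1) % 2 = 0 := by
      have h6 : ((p ^ k) ^ r) % 2 = 1 := by
        simp [Nat.pow_mod, hq]
      omega
    rw [Nat.gcd_rec 2, h4, Nat.gcd_rec 2 ((p ^ k) ^ r - 1), h5, ← Nat.gcd_rec 2 r]
    simp

end Cfsg.Agent.Lib.Helper42AutSpM
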