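import Mathlib
import Cfsg.Agent.Lib.Helper42AutSpA
import Cfsg.Agent.Lib.Helper7SpFrame

set_option autoImplicit false
open Cfsg

/-! The exceptional (graph) endomorphism of `Sp₄(F)` in characteristic two. (helper42) -/

namespace Cfsg.Agent.Lib.Helper42Sp4Graph

open Matrix Cfsg.Agent.Lib.Helper17Symp Cfsg.Agent.Lib.Helper17Symp2 Cfsg.Agent.Lib.Helper7Sp
  Cfsg.Agent.Lib.Helper42AutSpA

variable {F : Type*} [Field F]

local notation "I4" => (Fin 2 ⊕ Fin 2)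
local notation "V" => (Fin 2 ⊕ Fin 2 → F)
local notation "Sp" => Matrix.symplecticGroup (Fin 2) F
local notation "Mat" => Matrix (Fin 2 ⊕ Fin 2) (Fin 2 ⊕ Fin 2) F
local notation "ff" => sympForm 2 F
local notation "e1" => (Sum.inl 0 : Fin 2 ⊕ Fin 2)
local notation "e2" => (Sum.inl 1 : Fin 2 ⊕ Fin 2)
local notation "f1" => (Sum.inr 0 : Fin 2 ⊕ Fin 2)
local notation "f2" => (Sum.inr 1 : Fin 2 ⊕ Fin 2)

/-- first index of the pair attached to a coordinate of `Λ²` -/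
def p1 : Fin 2 ⊕ Fin 2 → Fin 2 ⊕ Fin 2 := Sum.elim ![e1, e1] ![f1, e2]
/-- second index of the pair attached to a coordinate of `Λ²` -/
def p2 : Fin 2 ⊕ Fin 2 → Fin 2 ⊕ Fin 2 := Sum.elim ![e2, f2] ![f2, f1]

/-- the four relevant Plücker coordinates of `u ∧ v` -/
def w (u v : V) : V := fun k => u (p1 k) * v (p2 k) - u (p2 k) * v (p1 k)

/-- the matrix of `Λ² A` on the four relevant coordinates -/
def tauM (A : Mat) : Mat :=
  Matrix.of fun k l => A (p1 k) (p1 l) * A (p2 k) (p2 l) - A (p2 k) (p1 l) * A (p1 k) (p2 l)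

theorem ff_eq (u v : V) :
    ff u v = u f1 * v e1 - u e1 * v f1 + (u f2 * v e2 - u e2 * v f2) := by
  rw [sympForm_eq_sum, Fin.sum_univ_two]

theorem mulVec_eq (A : Mat) (u : V) (a : I4) :
    (A *ᵥ u) a = A a e1 * u e1 + A a e2 * u e2 + (A a f1 * u f1 + A a f2 * u f2) := by
  simp only [mulVec, dotProduct, Fintype.sum_sum_type, Fin.sum_univ_two]

theorem CB (A : Mat) (u v : V) (a b : I4) :
    (A *ᵥ u) a * (A *ᵥ v) b - (A *ᵥ u) b * (A *ᵥ v) a
      = ∑ l, (A a (p1 l) * A b (p2 l) - A b (p1 l) * A a (p2 l)) * w u v l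
        + (A a e1 * A b f1 - A b e1 * A a f1) * (u e1 * v f1 - u f1 * v e1)
        + (A a e2 * A b f2 - A b e2 * A a f2) * (u e2 * v f2 - u f2 * v e2) := by
  simp only [mulVec_eq, Fintype.sum_sum_type, Fin.sum_univ_two, w, p1, p2, Sum.elim_inl,
    Sum.elim_inr, Matrix.cons_val_zero, Matrix.cons_val_one]
  ring

theorem ff_pair (k : I4) : ff (Pi.single (p1 k) 1) (Pi.single (p2 k) 1) = 0 := by
  rcases k with k | k <;> fin_cases k <;> simp [ff_eq, p1, p2]

theorem row_rel (A : Sp) (k : I4) :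
    ((A : Mat) (p1 k) e1 * (A : Mat) (p2 k) f1 - (A : Mat) (p2 k) e1 * (A : Mat) (p1 k) f1)
      + ((A : Mat) (p1 k) e2 * (A : Mat) (p2 k) f2 - (A : Mat) (p2 k) e2 * (A : Mat) (p1 k) f2)
      = 0 := by
  have hT : (A : Mat)ᵀ ∈ Sp := SymplecticGroup.transpose_mem A.2
  have h := (mem_symplecticGroup_iff_preserves 2 _).1 hT (Pi.single (p1 k) 1) (Pi.single (p2 k) 1)
  rw [ff_pair, ff_eq] at h
  simp only [mulVec_single_one, Matrix.col_apply, Matrix.transpose_apply] at h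
  linear_combination -h

theorem tauM_mulVec_w [CharP F 2] (A : Sp) {u v : V} (huv : ff u v = 0) :
    tauM (A : Mat) *ᵥ w u v = w ((A : Mat) *ᵥ u) ((A : Mat) *ᵥ v) := by
  have h2 : (2 : F) = 0 := CharP.cast_eq_zero F 2
  funext k
  have h1 := CB (A : Mat) u v (p1 k) (p2 k)
  have h3 := row_rel A k
  rw [ff_eq] at huv
  show ∑ l, tauM (A : Mat) k l * w u v l = _
  show _ = ((A : Mat) *ᵥ u) (p1 k) * ((A : Mat) *ᵥ v) (p2 k)
    - ((A : Mat) *ᵥ u) (p2 k) * ((A : Mat) *ᵥ v) (p1 k)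
  rw [h1]
  have h4 : ∑ l, tauM (A : Mat) k l * w u v l
      = ∑ l, ((A : Mat) (p1 k) (p1 l) * (A : Mat) (p2 k) (p2 l)
        - (A : Mat) (p2 k) (p1 l) * (A : Mat) (p1 k) (p2 l)) * w u v l := rfl
  rw [h4]
  linear_combination (-(u e2 * v f2 - u f2 * v e2)) * h3
    + ((A : Mat) (p1 k) e1 * (A : Mat) (p2 k) f1 - (A : Mat) (p2 k) e1 * (A : Mat) (p1 k) f1) * huv
    + ((A : Mat) (p1 k) e1 * (A : Mat) (p2 k) f1 - (A : Mat) (p2 k) e1 * (A : Mat) (p1 k) f1)
      * (u e2 * v f2 - u f2 * v e2) * h2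

theorem tauM_col (A : Mat) (l : I4) :
    tauM A *ᵥ Pi.single l 1 = w (A *ᵥ Pi.single (p1 l) 1) (A *ᵥ Pi.single (p2 l) 1) := by
  funext k
  simp only [mulVec_single_one, Matrix.col_apply, w, tauM, Matrix.of_apply]

theorem ff_w [CharP F 2] {u v x y : V} (huv : ff u v = 0) (hxy : ff x y = 0) :
    ff (w u v) (w x y) = ff u x * ff v y + ff u y * ff v x := by
  have h2 : (2 : F) = 0 := CharP.cast_eq_zero F 2
  rw [ff_eq] at huv hxy
  simp only [ff_eq, w, p1, p2, Sum.elim_inl, Sum.elim_inr, Matrix.cons_val_zero,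
    Matrix.cons_val_one]
  linear_combination
    (-(x f1 * y e1 - x e1 * y f1 + (x f2 * y e2 - x e2 * y f2)) - (x e1 * y f1 - x f1 * y e1)) * huv
    + (-(u e1 * v f1 - u f1 * v e1)) * hxy
    + (-((u f1 * y e1 - u e1 * y f1 + (u f2 * y e2 - u e2 * y f2))
          * (v f1 * x e1 - v e1 * x f1 + (v f2 * x e2 - v e2 * x f2)))
        - (u e1 * v f1 - u f1 * v e1) * (x e1 * y f1 - x f1 * y e1)
        - (u e1 * v e2 - u e2 * v e1) * (x f1 * y f2 - x f2 * y f1)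
        - (u e1 * v f2 - u f2 * v e1) * (x e2 * y f1 - x f1 * y e2)) * h2

theorem w_single (l : I4) : w (Pi.single (p1 l) 1 : V) (Pi.single (p2 l) 1) = Pi.single l 1 := by
  funext k
  rcases l with l | l <;> fin_cases l <;> rcases k with k | k <;> fin_cases k <;>
    simp [w, p1, p2]

theorem ff_pair' (A : Sp) (l : I4) :
    ff ((A : Mat) *ᵥ Pi.single (p1 l) 1) ((A : Mat) *ᵥ Pi.single (p2 l) 1) = 0 := by
  rw [preserves, ff_pair]

theorem gram_std [CharP F 2] (i j : I4) :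
    ff (Pi.single (p1 i) 1) (Pi.single (p1 j) 1) * ff (Pi.single (p2 i) 1) (Pi.single (p2 j) 1)
      + ff (Pi.single (p1 i) 1) (Pi.single (p2 j) 1) * ff (Pi.single (p2 i) 1) (Pi.single (p1 j) 1)
      = ff (Pi.single i 1) (Pi.single j 1) := by
  rcases i with i | i <;> fin_cases i <;> rcases j with j | j <;> fin_cases j <;>
    simp [ff_eq, p1, p2, CharTwo.neg_eq]

theorem tauM_mem [CharP F 2] (A : Sp) : tauM (A : Mat) ∈ Sp := by
  rw [Cfsg.Agent.Lib.Helper7SpFrame.mem_iff_basis]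
  intro i j
  rw [tauM_col, tauM_col, ff_w (ff_pair' A i) (ff_pair' A j), preserves, preserves, preserves,
    preserves, gram_std]

theorem tauM_one : tauM (1 : Mat) = 1 := by
  apply Matrix.ext_of_mulVec_single
  intro l
  rw [tauM_col, one_mulVec, one_mulVec, one_mulVec, w_single]

theorem tauM_mul [CharP F 2] (A B : Sp) :
    tauM ((A : Mat) * (B : Mat)) = tauM (A : Mat) * tauM (B : Mat) := by
  apply Matrix.ext_of_mulVec_single
  intro l
  rw [tauM_col, ← mulVec_mulVec, ← mulVec_mulVec, ← mulVec_mulVec, tauM_col,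
    tauM_mulVec_w A (ff_pair' B l)]

/-- the graph endomorphism of `Sp₄(F)`, characteristic two -/
def tau [CharP F 2] : Sp →* Sp where
  toFun A := ⟨tauM (A : Mat), tauM_mem A⟩
  map_one' := Subtype.ext tauM_one
  map_mul' A B := Subtype.ext (tauM_mul A B)

theorem tau_coe [CharP F 2] (A : Sp) : (tau A : Mat) = tauM (A : Mat) := rfl

theorem w_comm [CharP F 2] (u v : V) : w u v = w v u := by
  have h2 : (2 : F) = 0 := CharP.cast_eq_zero F 2
  funext k
  simp only [w]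
  linear_combination (u (p1 k) * v (p2 k) - u (p2 k) * v (p1 k)) * h2

theorem w_w [CharP F 2] {x y z : V} (hxy : ff x y = 0) (hxz : ff x z = 0) :
    w (w x y) (w x z) = ff y z • (fun k => x k ^ 2) := by
  have h2 : (2 : F) = 0 := CharP.cast_eq_zero F 2
  rw [ff_eq] at hxy hxz
  funext k
  rcases k with k | k <;> fin_cases k
  · simp only [ff_eq, w, p1, p2, Sum.elim_inl, Sum.elim_inr, Matrix.cons_val_zero,
      Matrix.cons_val_one, Pi.smul_apply, smul_eq_mul, Fin.zero_eta, Fin.mk_one]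
    linear_combination (-(x e1 * z e1)) * hxy + (x e1 * y e1) * hxz
      + (-(x e1 ^ 2 * (y f1 * z e1 - y e1 * z f1 + (y f2 * z e2 - y e2 * z f2)))) * h2
  · simp only [ff_eq, w, p1, p2, Sum.elim_inl, Sum.elim_inr, Matrix.cons_val_zero,
      Matrix.cons_val_one, Pi.smul_apply, smul_eq_mul, Fin.zero_eta, Fin.mk_one]
    linear_combination (x e2 * z e2) * hxy + (-(x e2 * y e2)) * hxz
  · simp only [ff_eq, w, p1, p2, Sum.elim_inl, Sum.elim_inr, Matrix.cons_val_zero,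
      Matrix.cons_val_one, Pi.smul_apply, smul_eq_mul, Fin.zero_eta, Fin.mk_one]
    linear_combination (-(x f1 * z f1)) * hxy + (x f1 * y f1) * hxz
      + (-(x f1 ^ 2 * (y f1 * z e1 - y e1 * z f1 + (y f2 * z e2 - y e2 * z f2)))) * h2
  · simp only [ff_eq, w, p1, p2, Sum.elim_inl, Sum.elim_inr, Matrix.cons_val_zero,
      Matrix.cons_val_one, Pi.smul_apply, smul_eq_mul, Fin.zero_eta, Fin.mk_one]
    linear_combination (-(x f2 * z f2)) * hxy + (x f2 * y f2) * hxz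
      + (-(x f2 ^ 2 * (y f1 * z e1 - y e1 * z f1 + (y f2 * z e2 - y e2 * z f2)))) * h2

theorem ffs [CharP F 2] (A : Sp) (a b : I4) :
    ff ((A : Mat) *ᵥ Pi.single a 1) ((A : Mat) *ᵥ Pi.single b 1)
      = ff (Pi.single a 1) (Pi.single b 1) := preserves A _ _

theorem tau_tau [CharP F 2] (A : Sp) : (tau (tau A) : Mat) = (A : Mat).map (fun x => x ^ 2) := by
  apply Matrix.ext_of_mulVec_single
  intro l
  have hr : ((A : Mat).map (fun x => x ^ 2)) *ᵥ Pi.single l 1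
      = fun k => (((A : Mat) *ᵥ Pi.single l 1) k) ^ 2 := by
    funext k
    simp only [mulVec_single_one, Matrix.col_apply, Matrix.map_apply]
  rw [tau_coe, tauM_col, tau_coe, tauM_col, tauM_col, hr]
  rcases l with l | l <;> fin_cases l
  · have e : w (w ((A : Mat) *ᵥ Pi.single e1 1) ((A : Mat) *ᵥ Pi.single e2 1))
        (w ((A : Mat) *ᵥ Pi.single e1 1) ((A : Mat) *ᵥ Pi.single f2 1)) = _ :=
      w_w (by rw [ffs]; simp [ff_eq]) (by rw [ffs]; simp [ff_eq])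
    rw [ffs] at e
    simpa [ff_eq, p1, p2, CharTwo.neg_eq] using e
  · have e : w (w ((A : Mat) *ᵥ Pi.single e2 1) ((A : Mat) *ᵥ Pi.single e1 1))
        (w ((A : Mat) *ᵥ Pi.single e2 1) ((A : Mat) *ᵥ Pi.single f1 1)) = _ :=
      w_w (by rw [ffs]; simp [ff_eq]) (by rw [ffs]; simp [ff_eq])
    rw [ffs, w_comm ((A : Mat) *ᵥ Pi.single e2 1) ((A : Mat) *ᵥ Pi.single e1 1)] at e
    simpa [ff_eq, p1, p2, CharTwo.neg_eq] using e
  · have e : w (w ((A : Mat) *ᵥ Pi.single f1 1) ((A : Mat) *ᵥ Pi.single f2 1))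
        (w ((A : Mat) *ᵥ Pi.single f1 1) ((A : Mat) *ᵥ Pi.single e2 1)) = _ :=
      w_w (by rw [ffs]; simp [ff_eq]) (by rw [ffs]; simp [ff_eq])
    rw [ffs, w_comm ((A : Mat) *ᵥ Pi.single f1 1) ((A : Mat) *ᵥ Pi.single e2 1)] at e
    simpa [ff_eq, p1, p2, CharTwo.neg_eq] using e
  · have e : w (w ((A : Mat) *ᵥ Pi.single f2 1) ((A : Mat) *ᵥ Pi.single e1 1))
        (w ((A : Mat) *ᵥ Pi.single f2 1) ((A : Mat) *ᵥ Pi.single f1 1)) = _ :=
      w_w (by rw [ffs]; simp [ff_eq]) (by rw [ffs]; simp [ff_eq])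
    rw [ffs, w_comm ((A : Mat) *ᵥ Pi.single f2 1) ((A : Mat) *ᵥ Pi.single e1 1),
      w_comm ((A : Mat) *ᵥ Pi.single f2 1) ((A : Mat) *ᵥ Pi.single f1 1)] at e
    simpa [ff_eq, p1, p2, CharTwo.neg_eq] using e

end Cfsg.Agent.Lib.Helper42Sp4Graph
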