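import Mathlib
import Cfsg.Agent.Lib.Helper42Sp4Graph
import Cfsg.Agent.Lib.Helper42AutSpCount
import Cfsg.Agent.Lib.Helper42SpInv

set_option autoImplicit false
open Cfsg

/-! The automorphism group of `Sp₄(2^f)`. (helper42) -/

namespace Cfsg.Agent.Lib.Helper42Sp4Aut

open Matrix Cfsg.Agent.Lib.Helper17Symp Cfsg.Agent.Lib.Helper17Symp2 Cfsg.Agent.Lib.Helper7Sp
  Cfsg.Agent.Lib.Helper42AutSpA Cfsg.Agent.Lib.Helper42AutSpG Cfsg.Agent.Lib.Helper42AutSpJ
  Cfsg.Agent.Lib.Helper42AutSpK Cfsg.Agent.Lib.Helper42Sp4Graph Cfsg.Agent.Lib.Helper42AutSpCount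
  Cfsg.Agent.Lib.Helper42AutSpC

variable {F : Type*} [Field F] [CharP F 2]

local notation "I4" => (Fin 2 ⊕ Fin 2)
local notation "V" => (Fin 2 ⊕ Fin 2 → F)
local notation "Sp" => Matrix.symplecticGroup (Fin 2) F
local notation "Mat" => Matrix (Fin 2 ⊕ Fin 2) (Fin 2 ⊕ Fin 2) F
local notation "ff" => sympForm 2 F
local notation "π" => (QuotientGroup.mk : Matrix.symplecticGroup (Fin 2) F → Cfsg.PSp 2 F)
local notation "GS" => { x // x ∈ GSp 2 F }
local notation "AutP" => MulAut (Cfsg.PSp 2 F)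
local notation "e1" => (Sum.inl 0 : Fin 2 ⊕ Fin 2)
local notation "e2" => (Sum.inl 1 : Fin 2 ⊕ Fin 2)
local notation "f1" => (Sum.inr 0 : Fin 2 ⊕ Fin 2)
local notation "f2" => (Sum.inr 1 : Fin 2 ⊕ Fin 2)
local notation "EE1" => (Pi.single (Sum.inl 0) 1 : Fin 2 ⊕ Fin 2 → F)

theorem tau_injective : Function.Injective (tau : Sp →* Sp) := by
  intro A B h
  have h1 : (tau (tau A) : Mat) = (tau (tau B) : Mat) := by rw [h]
  rw [tau_tau, tau_tau] at h1
  apply Subtype.ext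
  ext i j
  have := congrFun (congrFun h1 i) j
  simp only [Matrix.map_apply] at this
  exact frobenius_inj F 2 this

theorem tau_t_f1 : (tau (tv 2 EE1 1) : Mat) *ᵥ Pi.single f1 1 = Pi.single f1 1 + Pi.single e2 1 := by
  rw [tau_coe, tauM_col, tv_mulVec, tv_mulVec]
  funext k
  rcases k with k | k <;> fin_cases k <;> simp [w, p1, p2, ff_eq]

theorem tau_t_f2 : (tau (tv 2 EE1 1) : Mat) *ᵥ Pi.single f2 1 = Pi.single f2 1 + Pi.single e1 1 := by
  rw [tau_coe, tauM_col, tv_mulVec, tv_mulVec]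
  funext k
  rcases k with k | k <;> fin_cases k <;> simp [w, p1, p2, ff_eq, CharTwo.neg_eq]

theorem tau_t_ne (v : V) (b : F) : tau (tv 2 EE1 1) ≠ tv 2 v b := by
  intro h
  have h1 := tau_t_f1 (F := F)
  have h2 := tau_t_f2 (F := F)
  rw [h, tv_mulVec, add_right_inj] at h1 h2
  have a1 := congrFun h1 e1
  have a2 := congrFun h1 e2
  have a3 := congrFun h2 e1
  simp only [Pi.smul_apply, smul_eq_mul] at a1 a2 a3
  simp at a1 a2 a3
  rcases a1 with a1 | a1
  · rcases a1 with a1 | a1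
    · rw [a1] at a2; simp at a2
    · rw [a1] at a2; simp at a2
  · rw [a1] at a3; simp at a3

theorem c_excl (q A B C A' B' C' : ℕ) (hq : 2 ≤ q)
    (h : q ^ A * (q ^ B * PP q 0) * (q ^ C * PP q 0)
      = q ^ A' * (q ^ B' * PP q 0) * (q ^ C' * PP q 1)) : False := by
  have h1 : q ^ (A + B + C) * (PP q 0 * PP q 0) = q ^ (A' + B' + C') * (PP q 0 * PP q 1) := by
    rw [pow_add, pow_add, pow_add, pow_add]
    linarith
  have h2 := cancel_pow q _ _ _ _ (Nat.Coprime.mul_right (coprime_PP q 0 hq) (coprime_PP q 0 hq))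
    (Nat.Coprime.mul_right (coprime_PP q 0 hq) (coprime_PP q 1 hq)) h1
  have h3 : PP q 0 = 1 := rfl
  have h4 := PP_strictMono q hq (show 0 < 1 by omega)
  rw [h3] at h2 h4
  omega

/-- the image of a transvection under an automorphism of `Sp₄(2^f)` -/
theorem tri [Fintype F] (γ : Sp ≃* Sp) {e : V} {a : F} (he : e ≠ 0) (ha : a ≠ 0) :
    (∃ (v : V) (b : F), γ (tv 2 e a) = tv 2 v b) ∨
    (((γ (tv 2 e a) : Mat) - 1).rank = 2 ∧ ∀ v : V, ff v ((γ (tv 2 e a) : Mat) *ᵥ v) = 0) := by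
  classical
  obtain ⟨t, ht⟩ : ∃ t, t = tv 2 e a := ⟨_, rfl⟩
  obtain ⟨x, hx⟩ : ∃ x, x = γ t := ⟨_, rfl⟩
  rw [← ht, ← hx]
  have h2 : (2 : F) = 0 := CharP.cast_eq_zero F 2
  have ht2 : t ^ 2 = 1 := by
    rw [ht, pow_two, tv_mul, ← two_mul, h2, zero_mul, tv_zero_right]
  have hx2 : x ^ 2 = 1 := by rw [hx, ← map_pow, ht2, map_one]
  have hx1 : x ≠ 1 := by
    intro h
    rw [hx, map_eq_one_iff γ γ.injective] at h
    exact tv_ne_one he ha (ht ▸ h)
  have hcard : Nat.card (Subgroup.centralizer ({x} : Set Sp))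
      = Nat.card (Subgroup.centralizer ({t} : Set Sp)) := by
    rw [hx]; exact card_centralizer_map γ t
  have hq : 2 ≤ Fintype.card F := Fintype.one_lt_card
  have f1' := Cfsg.Agent.S2680.result rfl t ht2 (by rw [ht]; exact rank_tv he ha) odd_one
  obtain ⟨s, hs⟩ : ∃ s, ((x : Mat) - 1).rank = s := ⟨_, rfl⟩
  have hs1 : 1 ≤ s := by
    by_contra h0
    have h0' : s = 0 := by omega
    apply hx1
    have h3 : Module.finrank F (LinearMap.range ((x : Mat) - 1).mulVecLin) = 0 := by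
      rw [← h0', ← hs]; rfl
    rw [Submodule.finrank_eq_zero] at h3
    apply ext_mulVec
    intro y
    have h4 : ((x : Mat) - 1).mulVecLin y ∈ LinearMap.range ((x : Mat) - 1).mulVecLin := ⟨y, rfl⟩
    rw [h3, Submodule.mem_bot, mulVecLin_apply, sub_mulVec, one_mulVec, sub_eq_zero] at h4
    rw [h4]
    exact (one_mulVec y).symm
  have hsm : s ≤ 2 := by
    rw [← hs]
    exact Cfsg.Agent.Lib.Helper42CentSp.rank_le x (by rw [← pow_two]; exact hx2)
  rcases (by omega : s = 1 ∨ s = 2) with h1 | h1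
  · left
    exact eq_tv_of_rank_one x (by rw [hs, h1])
  · right
    subst h1
    refine ⟨hs, ?_⟩
    by_contra halt
    push Not at halt
    have f2' := Cfsg.Agent.S2682.result rfl x hx2 hs (by decide) halt
    rw [hcard, f1'] at f2'
    simp only [PP_fin] at f2'
    exact c_excl _ _ _ _ _ _ _ hq f2'.symm

variable [Finite F]

/-- the graph automorphism of `Sp₄(2^f)` -/
noncomputable def tauE : Sp ≃* Sp :=
  MulEquiv.ofBijective tau (Finite.injective_iff_bijective.mp tau_injective)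

/-- the graph automorphism of `PSp₄(2^f)` -/
noncomputable def Gam : AutP := liftAut tauE

theorem Gam_mk (s : Sp) : Gam (π s) = π (tau s) := rfl

theorem Gam_sq : (Gam : AutP) * Gam = fHom (frobeniusEquiv F 2) := by
  ext x
  obtain ⟨s, rfl⟩ := QuotientGroup.mk_surjective x
  rw [MulAut.mul_apply, Gam_mk, Gam_mk, fHom_apply, aut_mk]
  congr 1
  apply Subtype.ext
  rw [tau_tau, semi_coe]
  simp only [OneMemClass.coe_one, Units.val_one, one_mul, inv_one, mul_one]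
  ext i j
  simp [frobeniusEquiv_apply, frobenius_def]

theorem exists_sqrt (a : F) : ∃ c : F, c ^ 2 = a := by
  have : Fintype F := Fintype.ofFinite F
  obtain ⟨y, hy⟩ := FiniteField.isSquare_of_char_two (ringChar.eq F 2) a
  exact ⟨y, by rw [hy, pow_two]⟩

/-- all transvections are conjugate -/
theorem TT_of_one (β : AutP) {v : V} {b : F} (h : β (π (tv 2 EE1 1)) = π (tv 2 v b)) :
    Cfsg.Agent.Lib.Helper42AutSpD.TT β := by
  intro e a
  by_cases he : e = 0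
  · subst he
    refine ⟨0, 0, ?_⟩
    rw [tv_zero_left, tv_zero_left]
    exact map_one β
  by_cases ha : a = 0
  · subst ha
    refine ⟨0, 0, ?_⟩
    rw [tv_zero_right, tv_zero_left]
    exact map_one β
  obtain ⟨c, hc⟩ := exists_sqrt a
  have hc0 : c ≠ 0 := by
    rintro rfl
    apply ha
    rw [← hc]; simp
  obtain ⟨k, hk⟩ := Cfsg.Agent.Lib.Helper42AutSpB.exists_map
    (Cfsg.Agent.Lib.Helper42AutSpF.single_ne_zero (F := F) (m := 2) (Sum.inl 0))
    (smul_ne_zero hc0 he)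
  have hconj : tv 2 e a = k * tv 2 EE1 1 * k⁻¹ := by
    rw [conj_tv, hk, tv_smul, hc, mul_one]
  obtain ⟨k', hk'⟩ := QuotientGroup.mk_surjective (β (π k))
  refine ⟨(k' : Mat) *ᵥ v, b, ?_⟩
  rw [hconj, ← conj_tv]
  show β (π k * π (tv 2 EE1 1) * (π k)⁻¹) = π k' * π (tv 2 v b) * (π k')⁻¹
  rw [map_mul, map_mul, map_inv, h, hk']

theorem exists_aut_of_one (β : AutP) {v : V} {b : F} (h : β (π (tv 2 EE1 1)) = π (tv 2 v b)) :
    ∃ (g : GS) (σ : F ≃+* F), β = aut g σ := by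
  obtain ⟨g, σ, hg, hβ⟩ := Cfsg.Agent.Lib.Helper42AutSpH.induced le_rfl (TT_of_one β h)
  exact ⟨⟨g, hg⟩, σ, (induced_iff' ⟨g, hg⟩ σ β).1 hβ⟩

theorem aut_or (β : AutP) :
    (∃ (g : GS) (σ : F ≃+* F), β = aut g σ) ∨ (∃ (g : GS) (σ : F ≃+* F), β = Gam * aut g σ) := by
  have : Fintype F := Fintype.ofFinite F
  let Θ : Sp ≃* Cfsg.PSp 2 F := MulEquiv.ofBijective (QuotientGroup.mk' (Subgroup.center Sp))
    ⟨mk_injective (by omega), QuotientGroup.mk'_surjective _⟩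
  let γ : Sp ≃* Sp := (Θ.trans β).trans Θ.symm
  have hγ : ∀ s, π (γ s) = β (π s) := fun s => Θ.apply_symm_apply _
  have hE : EE1 ≠ 0 := Cfsg.Agent.Lib.Helper42AutSpF.single_ne_zero (F := F) (m := 2) (Sum.inl 0)
  rcases tri γ hE one_ne_zero with ⟨v, b, h⟩ | ⟨hr, halt⟩
  · left
    apply exists_aut_of_one β (v := v) (b := b)
    rw [← hγ, h]
  · right
    rcases tri tauE hE one_ne_zero with ⟨v, b, h⟩ | ⟨hr', halt'⟩
    · exact absurd h (tau_t_ne v b)
    have h2 : (2 : F) = 0 := CharP.cast_eq_zero F 2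
    have ht2 : tv 2 EE1 1 * tv 2 EE1 1 = 1 := by
      rw [tv_mul, ← two_mul, h2, zero_mul, tv_zero_right]
    have hc : IsConj (tauE (tv 2 EE1 1)) (γ (tv 2 EE1 1)) := by
      apply Cfsg.Agent.Lib.Helper42SpInv.conj_iff_aux
      · rw [← map_mul, ht2, map_one]
      · rw [← map_mul, ht2, map_one]
      · rw [← Cfsg.Agent.Lib.Helper42SpInv.rank_eq, ← Cfsg.Agent.Lib.Helper42SpInv.rank_eq, hr, hr']
      · simp only [Cfsg.Agent.Lib.Helper42SpInv.gamma_eq]
        exact ⟨fun _ => halt, fun _ => halt'⟩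
    rw [isConj_iff] at hc
    obtain ⟨k, hk⟩ := hc
    obtain ⟨k', rfl⟩ := tauE.surjective k
    have h3 : γ (tv 2 EE1 1) = tauE (tv 2 ((k' : Mat) *ᵥ EE1) 1) := by
      rw [← hk, ← conj_tv, map_mul, map_mul, map_inv]
    obtain ⟨g, σ, hg⟩ := exists_aut_of_one (Gam⁻¹ * β) (v := (k' : Mat) *ᵥ EE1) (b := 1) (by
      rw [MulAut.mul_apply, ← hγ, h3]
      show Gam⁻¹ (Gam (π _)) = _
      rw [← MulAut.mul_apply, inv_mul_cancel]
      rfl)
    exact ⟨g, σ, by rw [← hg, mul_inv_cancel_left]⟩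

theorem Gam_ne (g : GS) (σ : F ≃+* F) : (Gam : AutP) ≠ aut g σ := by
  intro h
  have h1 := congrArg (fun β : AutP => β (π (tv 2 EE1 1))) h
  simp only [Gam_mk, aut_tv (by omega : 0 < 2)] at h1
  exact tau_t_ne _ _ (mk_injective (by omega) h1)

theorem Gam_notMem : (Gam : AutP) ∉ PG 2 F := by
  rw [mem_PG 2 le_rfl]
  rintro ⟨g, σ, h⟩
  exact Gam_ne g σ h

theorem index_PG : (PG 2 F).index = 2 := by
  rw [Subgroup.index_eq_two_iff']
  refine ⟨Gam⁻¹, fun β => ?_⟩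
  rcases aut_or β with ⟨g, σ, h⟩ | ⟨g, σ, h⟩
  · have hβ : β ∈ PG 2 F := (mem_PG 2 le_rfl β).2 ⟨g, σ, h⟩
    right
    refine ⟨hβ, fun h1 => ?_⟩
    apply Gam_notMem (F := F)
    have := (PG 2 F).mul_mem hβ ((PG 2 F).inv_mem h1)
    simpa using this
  · have h1 : Gam⁻¹ * β ∈ PG 2 F :=
      (mem_PG 2 le_rfl _).2 ⟨g, σ, by rw [h, inv_mul_cancel_left]⟩
    left
    refine ⟨h1, fun hβ => ?_⟩
    apply Gam_notMem (F := F)
    have := (PG 2 F).mul_mem hβ ((PG 2 F).inv_mem h1)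
    simpa using this

end Cfsg.Agent.Lib.Helper42Sp4Aut
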