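import Mathlib
import Cfsg.Agent.Lib.Helper42Sp4Aut

set_option autoImplicit false
open Cfsg

/-! `Out(Sp₄(2^f))` is cyclic of order `2f`. (helper42) -/

namespace Cfsg.Agent.Lib.Helper42Sp4Out

open Cfsg.Agent.Lib.Helper42AutSpJ Cfsg.Agent.Lib.Helper42AutSpK Cfsg.Agent.Lib.Helper42AutSpCount
  Cfsg.Agent.Lib.Helper42Sp4Aut

variable {F : Type*} [Field F] [CharP F 2]

theorem frob_pow_apply [Finite F] (n : ℕ) (x : F) : (frobeniusEquiv F 2 ^ n) x = x ^ 2 ^ n := by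
  induction n with
  | zero => simp
  | succ n ih =>
    rw [pow_succ']
    show frobeniusEquiv F 2 ((frobeniusEquiv F 2 ^ n) x) = _
    rw [ih, frobeniusEquiv_apply, frobenius_def, ← pow_mul, pow_succ]

theorem orderOf_frob [Fintype F] {f : ℕ} (hF : Fintype.card F = 2 ^ f) :
    orderOf (frobeniusEquiv F 2) = f := by
  obtain ⟨-, hcard⟩ := Cfsg.Agent.Lib.Helper50Out.ringAut_cyclic_card (p := 2) hF
  have : Finite (F ≃+* F) := Finite.of_injective (fun τ : F ≃+* F => (τ : F → F))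
    DFunLike.coe_injective
  obtain ⟨n, hn⟩ : ∃ n, n = orderOf (frobeniusEquiv F 2) := ⟨_, rfl⟩
  rw [← hn]
  have hn0 : 0 < n := by rw [hn]; exact orderOf_pos _
  have hdvd : n ∣ f := by
    rw [hn, ← hcard]
    exact orderOf_dvd_natCard _
  have hf0 : 0 < f := by
    rcases Nat.eq_zero_or_pos f with h | h
    · subst h
      have := Fintype.one_lt_card (α := F)
      rw [hF] at this
      simp at this
    · exact h
  have hpow : ∀ x : F, x ^ 2 ^ n = x := by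
    intro x
    rw [← frob_pow_apply, hn, pow_orderOf_eq_one]
    rfl
  obtain ⟨ζ, hζ⟩ := IsCyclic.exists_generator (α := Fˣ)
  have hord : orderOf ζ = 2 ^ f - 1 := by
    rw [orderOf_eq_card_of_forall_mem_zpowers hζ, Nat.card_units, Nat.card_eq_fintype_card, hF]
  have h1 : ζ ^ (2 ^ n - 1) = 1 := by
    have h2 : ζ ^ 2 ^ n = ζ := by
      ext
      rw [Units.val_pow_eq_pow_val]
      exact hpow _
    have h3 : 2 ^ n = (2 ^ n - 1) + 1 := by
      have : 0 < 2 ^ n := by positivity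
      omega
    rw [h3, pow_succ] at h2
    exact mul_eq_right.mp h2
  have h4 := orderOf_dvd_of_pow_eq_one h1
  rw [hord] at h4
  have h5 : 2 ≤ 2 ^ n := by
    calc 2 = 2 ^ 1 := rfl
      _ ≤ 2 ^ n := Nat.pow_le_pow_right (by omega) hn0
  have h6 := Nat.le_of_dvd (by omega) h4
  have h7 : 2 ^ f ≤ 2 ^ n := by
    have : 0 < 2 ^ f := by positivity
    omega
  have h8 : f ≤ n := (Nat.pow_le_pow_iff_right (by omega)).mp h7
  exact le_antisymm (Nat.le_of_dvd hf0 hdvd) h8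

theorem mem_zpowers_frob [Fintype F] {f : ℕ} (hF : Fintype.card F = 2 ^ f) (σ : F ≃+* F) :
    σ ∈ Subgroup.zpowers (frobeniusEquiv F 2) := by
  obtain ⟨-, hcard⟩ := Cfsg.Agent.Lib.Helper50Out.ringAut_cyclic_card (p := 2) hF
  have : Finite (F ≃+* F) := Finite.of_injective (fun τ : F ≃+* F => (τ : F → F))
    DFunLike.coe_injective
  have h : Subgroup.zpowers (frobeniusEquiv F 2) = ⊤ := by
    apply Subgroup.eq_top_of_card_eq
    rw [Nat.card_zpowers, orderOf_frob hF, hcard]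
  rw [h]
  exact Subgroup.mem_top σ

theorem out_cyclic [Fintype F] {f : ℕ} (hF : Fintype.card F = 2 ^ f) :
    IsCyclic (Cfsg.Out (Cfsg.PSp 2 F)) := by
  refine ⟨⟨QuotientGroup.mk Gam, fun x => ?_⟩⟩
  obtain ⟨β, rfl⟩ := QuotientGroup.mk_surjective x
  have key : ∀ (g : { x // x ∈ GSp 2 F }) (σ : F ≃+* F),
      (QuotientGroup.mk (aut g σ) : Cfsg.Out (Cfsg.PSp 2 F))
        ∈ Subgroup.zpowers (QuotientGroup.mk Gam : Cfsg.Out (Cfsg.PSp 2 F)) := by
    intro g σ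
    obtain ⟨k, hk⟩ := mem_zpowers_frob hF σ
    have h1 : cHom g ∈ Cfsg.Inn (Cfsg.PSp 2 F) := by
      rw [← range_eq_inn_of_char_two le_rfl]
      exact ⟨g, rfl⟩
    rw [aut_eq, QuotientGroup.mk_mul, (QuotientGroup.eq_one_iff _).2 h1, one_mul]
    have hk' : frobeniusEquiv F 2 ^ k = σ := hk
    rw [← hk', map_zpow, ← Gam_sq, QuotientGroup.mk_zpow, QuotientGroup.mk_mul]
    exact Subgroup.zpow_mem _ (Subgroup.mul_mem _ (Subgroup.mem_zpowers _)
      (Subgroup.mem_zpowers _)) k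
  rcases aut_or β with ⟨g, σ, rfl⟩ | ⟨g, σ, rfl⟩
  · exact key g σ
  · rw [QuotientGroup.mk_mul]
    exact Subgroup.mul_mem _ (Subgroup.mem_zpowers _) (key g σ)

theorem card_out [Fintype F] {f : ℕ} (hf : 1 ≤ f) (hF : Fintype.card F = 2 ^ f) :
    Nat.card (Cfsg.Out (Cfsg.PSp 2 F)) = 2 * f := by
  obtain ⟨-, hcard⟩ := Cfsg.Agent.Lib.Helper50Out.ringAut_cyclic_card (p := 2) hF
  show (Cfsg.Inn (Cfsg.PSp 2 F)).index = 2 * f
  rw [← Subgroup.relIndex_mul_index (inn_le_PG (m := 2) (F := F)), relIndex_inn_PG 2 le_rfl,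
    index_PG, hcard, Nat.card_eq_fintype_card, hF]
  have h1 : Nat.gcd 2 (2 ^ f - 1) = 1 := by
    obtain ⟨k, rfl⟩ : ∃ k, f = k + 1 := ⟨f - 1, by omega⟩
    have h2 : (2 ^ (k + 1) - 1) % 2 = 1 := by
      have : 0 < 2 ^ k := by positivity
      rw [pow_succ]
      omega
    rw [Nat.gcd_rec, h2]
    simp
  rw [h1]
  ring

end Cfsg.Agent.Lib.Helper42Sp4Out
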