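import Mathlib
import Cfsg.Agent.Lib.Helper42BalA
import Cfsg.Agent.Lib.Helper42Sp4Out
import Cfsg.Agent.Lib.Helper42AutSpM
import Cfsg.Agent.S0270

set_option autoImplicit false
open Cfsg

/-! Local balance for `PSp`: the subgroup `Sp(F₀)` of fixed points of a field automorphism.
(helper42) -/

namespace Cfsg.Agent.Lib.Helper42BalB

open Matrix Cfsg.Agent.Lib.Helper17Symp Cfsg.Agent.Lib.Helper17Symp2 Cfsg.Agent.Lib.Helper7Sp
  Cfsg.Agent.Lib.Helper42AutSpA Cfsg.Agent.Lib.Helper42AutSpG Cfsg.Agent.Lib.Helper42AutSpJ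
  Cfsg.Agent.Lib.Helper42AutSpK Cfsg.Agent.Lib.Helper42AutSpCount

variable {F : Type*} [Field F] {m : ℕ} {F₀ : Type*} [Field F₀]

local notation "V" => (Fin m ⊕ Fin m → F)
local notation "Sp" => Matrix.symplecticGroup (Fin m) F
local notation "Sp0" => Matrix.symplecticGroup (Fin m) F₀
local notation "Mat" => Matrix (Fin m ⊕ Fin m) (Fin m ⊕ Fin m) F
local notation "Mat0" => Matrix (Fin m ⊕ Fin m) (Fin m ⊕ Fin m) F₀
local notation "ff" => sympForm m F
local notation "π" => (QuotientGroup.mk : Matrix.symplecticGroup (Fin m) F → Cfsg.PSp m F)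
local notation "GS" => { x // x ∈ GSp m F }
local notation "AutP" => MulAut (Cfsg.PSp m F)
local notation "JJ" => Matrix.J (Fin m) F

theorem mem_zpowers_of_fix [Finite F] (σ τ : F ≃+* F)
    (h : ∀ a, σ a = a → τ a = a) : τ ∈ Subgroup.zpowers σ := by
  have hfin : Finite (F ≃+* F) := Finite.of_injective (fun β : F ≃+* F => (β : F → F))
    (fun a b h => RingEquiv.ext (congrFun h))
  let G := Subgroup.zpowers σ
  have hb := FixedPoints.toAlgHom_bijective G F
  let T : F →ₐ[FixedPoints.subfield G F] F :=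
    { (τ : F →+* F) with
      commutes' := fun a => h a.1 (a.2 ⟨σ, Subgroup.mem_zpowers σ⟩) }
  obtain ⟨g, hg⟩ := hb.2 T
  have : τ = g.1 := by
    ext a
    have := congrArg (fun f : F →ₐ[FixedPoints.subfield G F] F => f a) hg
    exact this.symm
  rw [this]
  exact g.2

/-- base change `Sp(F₀) → Sp(F)` -/
def mapSp (j : F₀ →+* F) : Sp0 →* Sp where
  toFun s := ⟨(s : Mat0).map j, SymplecticGroup.map_mem s.2 j⟩
  map_one' := Subtype.ext (Matrix.map_one _ (map_zero j) (map_one j))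
  map_mul' _ _ := Subtype.ext (Matrix.map_mul)

theorem mapSp_coe (j : F₀ →+* F) (s : Sp0) : (mapSp j s : Mat) = (s : Mat0).map j := rfl

theorem mapSp_tv (j : F₀ →+* F) (v : Fin m ⊕ Fin m → F₀) (a : F₀) :
    mapSp j (tv m v a) = tv m (j ∘ v) (j a) := by
  apply Subtype.ext
  show (sympTransvection m v a).map j = sympTransvection m (j ∘ v) (j a)
  unfold sympTransvection
  have h1 : JJ *ᵥ (j ∘ v) = j ∘ (Matrix.J (Fin m) F₀ *ᵥ v) := by
    rw [← J_map j]
    funext i
    simp only [Matrix.mulVec, dotProduct, Function.comp, map_sum, map_mul, Matrix.map_apply]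
  rw [h1]
  ext i k
  by_cases hik : i = k
  · subst hik
    simp [Matrix.vecMulVec_apply]
  · simp [Matrix.vecMulVec_apply, hik]

theorem comp_single0 (j : F₀ →+* F) (k : Fin m ⊕ Fin m) :
    j ∘ (Pi.single k 1 : Fin m ⊕ Fin m → F₀) = (Pi.single k 1 : V) := by
  funext i
  by_cases h : i = k
  · subst h; simp
  · simp [h]

theorem comp_add0 (j : F₀ →+* F) (u v : Fin m ⊕ Fin m → F₀) : j ∘ (u + v) = j ∘ u + j ∘ v := by
  funext k; simp

/-- entrywise field automorphism on `Sp` -/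
def sg (σ : F ≃+* F) : Sp →* Sp := semi (1 : GS).1 (1 : GS).2 σ

theorem sg_coe (σ : F ≃+* F) (s : Sp) : (sg σ s : Mat) = (s : Mat).map σ := by
  unfold sg
  rw [semi_coe]
  simp

theorem sg_mapSp (σ : F ≃+* F) (j : F₀ →+* F) (hj : ∀ a, σ a = a ↔ a ∈ Set.range j) (s : Sp0) :
    sg σ (mapSp j s) = mapSp j s := by
  apply Subtype.ext
  rw [sg_coe]
  ext a b
  exact (hj _).2 ⟨_, rfl⟩

theorem descentSp (σ : F ≃+* F) (j : F₀ →+* F) (hj : ∀ a, σ a = a ↔ a ∈ Set.range j) (s : Sp)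
    (hs : sg σ s = s) : ∃ t : Sp0, mapSp j t = s := by
  have hs' : (s : Mat).map σ = (s : Mat) := by rw [← sg_coe, hs]
  choose h₀ hh₀ using fun a b => (hj _).1 (congrFun (congrFun hs' a) b)
  have hmap : (Matrix.of h₀).map j = (s : Mat) := by
    ext a b
    exact hh₀ a b
  have hmem : Matrix.of h₀ ∈ Matrix.symplecticGroup (Fin m) F₀ := by
    rw [SymplecticGroup.mem_iff]
    apply Matrix.map_injective j.injective
    show (Matrix.of h₀ * Matrix.J (Fin m) F₀ * (Matrix.of h₀)ᵀ).map j = (Matrix.J (Fin m) F₀).map j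
    rw [Matrix.map_mul, Matrix.map_mul, J_map, Matrix.transpose_map, hmap]
    exact (SymplecticGroup.mem_iff).1 s.2
  exact ⟨⟨_, hmem⟩, Subtype.ext hmap⟩

theorem fHom_mk [Finite F] (σ : F ≃+* F) (s : Sp) : fHom σ (π s) = π (sg σ s) := rfl

/-- the map `Sp(F₀) → PSp(F)` -/
def lam (j : F₀ →+* F) : Sp0 →* Cfsg.PSp m F :=
  (QuotientGroup.mk' (Subgroup.center Sp)).comp (mapSp j)

theorem lam_apply (j : F₀ →+* F) (s : Sp0) : lam j s = π (mapSp j s) := rfl

theorem H2 [Finite F] (σ : F ≃+* F) (j : F₀ →+* F) (hj : ∀ a, σ a = a ↔ a ∈ Set.range j)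
    (s : Sp0) : fHom σ (lam j s) = lam j s := by
  rw [lam_apply, fHom_mk, sg_mapSp σ j hj]

theorem exists_center [Finite F] (σ : F ≃+* F) (s : Sp) (h : fHom σ (π s) = π s) :
    ∃ z ∈ Subgroup.center Sp, sg σ s = s * z := by
  rw [fHom_mk] at h
  refine ⟨s⁻¹ * sg σ s, QuotientGroup.eq.1 h.symm, ?_⟩
  group

theorem H4 [Finite F] (σ : F ≃+* F) (j : F₀ →+* F) (hj : ∀ a, σ a = a ↔ a ∈ Set.range j)
    (k : Cfsg.PSp m F) (hk : fHom σ k = k) (s : Sp0) :
    ∃ t, k * lam j s * k⁻¹ * (lam j s)⁻¹ = lam j t := by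
  obtain ⟨u, rfl⟩ := QuotientGroup.mk_surjective k
  obtain ⟨z, hz, hu⟩ := exists_center σ u hk
  rw [Subgroup.mem_center_iff] at hz
  have h1 : sg σ (u * mapSp j s * u⁻¹ * (mapSp j s)⁻¹) = u * mapSp j s * u⁻¹ * (mapSp j s)⁻¹ := by
    rw [map_mul, map_mul, map_mul, map_inv, map_inv, sg_mapSp σ j hj, hu, _root_.mul_inv_rev]
    calc u * z * mapSp j s * (z⁻¹ * u⁻¹) * (mapSp j s)⁻¹
        = u * (z * mapSp j s) * z⁻¹ * u⁻¹ * (mapSp j s)⁻¹ := by group
      _ = u * (mapSp j s * z) * z⁻¹ * u⁻¹ * (mapSp j s)⁻¹ := by rw [hz]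
      _ = _ := by group
  obtain ⟨t, ht⟩ := descentSp σ j hj _ h1
  exact ⟨t, by rw [lam_apply j t, ht]; rfl⟩

/-! ### normal subgroups of `Sp(F₀)` -/

open scoped commutatorElement in
theorem comm_mem {G : Type*} [Group G] (a b : G) : (a * b)⁻¹ * (b * a) ∈ commutator G := by
  have : (a * b)⁻¹ * (b * a) = ⁅b⁻¹, a⁻¹⁆ := by
    rw [commutatorElement_def]; group
  rw [this]
  exact Subgroup.commutator_mem_commutator (Subgroup.mem_top _) (Subgroup.mem_top _)

theorem normal_dich [Finite F₀] (hm : 1 ≤ m) (N : Subgroup Sp0) (hN : N.Normal) :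
    N ≤ Subgroup.center Sp0 ∨ commutator Sp0 ≤ N := by
  have hprim := Cfsg.Agent.S0270.prim (F := F₀) (m := m) hm
  by_cases hfix : MulAction.fixedPoints N (Projectivization F₀ (Fin m ⊕ Fin m → F₀)) = Set.univ
  · left
    intro A hA
    apply Cfsg.Agent.S0270.mem_center_of_fix
    intro p
    have hp : p ∈ MulAction.fixedPoints N (Projectivization F₀ (Fin m ⊕ Fin m → F₀)) := by
      rw [hfix]; trivial
    exact hp ⟨A, hA⟩
  · right
    exact (Cfsg.Agent.S0270.iwa m F₀).commutator_le N hfix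

theorem tv_pow (v : Fin m ⊕ Fin m → F₀) (a : F₀) (n : ℕ) : tv m v a ^ n = tv m v (n * a) := by
  induction n with
  | zero => rw [pow_zero, Nat.cast_zero, zero_mul, tv_zero_right]
  | succ n ih => rw [pow_succ, ih, tv_mul, Nat.cast_succ, add_mul, one_mul]

theorem pow_mem (r : ℕ) [CharP F₀ r] (N : Subgroup Sp0) (hN : N.Normal)
    (h : commutator Sp0 ≤ N) (y : Sp0) : y ^ r ∈ N := by
  have hcomm : ∀ a b : Sp0 ⧸ N, a * b = b * a := by
    intro a b
    obtain ⟨a, rfl⟩ := QuotientGroup.mk_surjective a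
    obtain ⟨b, rfl⟩ := QuotientGroup.mk_surjective b
    rw [← QuotientGroup.mk_mul, ← QuotientGroup.mk_mul, QuotientGroup.eq]
    exact h (comm_mem a b)
  have key : ∀ y : Sp0, (QuotientGroup.mk y : Sp0 ⧸ N) ^ r = 1 := by
    intro y
    have hy : y ∈ Subgroup.closure {A : Sp0 | ∃ (w : Fin m ⊕ Fin m → F₀) (c : F₀),
        (A : Mat0) = Cfsg.sympTransvection m w c} := by
      rw [Cfsg.Agent.S0765.result m]; trivial
    induction hy using Subgroup.closure_induction with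
    | mem x hx =>
      obtain ⟨w, c, hx⟩ := hx
      have hx' : x = tv m w c := Subtype.ext hx
      rw [← QuotientGroup.mk_pow, hx', tv_pow, CharP.cast_eq_zero, zero_mul, tv_zero_right]
      rfl
    | one => exact one_pow _
    | mul a b _ _ ha hb =>
      rw [QuotientGroup.mk_mul, (show Commute _ _ from hcomm _ _).mul_pow, ha, hb, one_mul]
    | inv a _ ha => rw [QuotientGroup.mk_inv, inv_pow, ha, inv_one]
  have := key y
  rw [← QuotientGroup.mk_pow, QuotientGroup.eq_one_iff] at this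
  exact this

theorem lam_center (hm : 1 ≤ m) (j : F₀ →+* F) (n : Sp0) (hn : n ∈ Subgroup.center Sp0) :
    lam j n = 1 := by
  rw [lam_apply, QuotientGroup.eq_one_iff, Cfsg.Agent.Lib.Helper45Sp.mem_center_iff hm]
  rcases (Cfsg.Agent.Lib.Helper45Sp.mem_center_iff hm n).1 hn with h | h
  · left
    rw [mapSp_coe, h]
    exact Matrix.map_one _ (map_zero j) (map_one j)
  · right
    rw [mapSp_coe, h]
    ext a b
    by_cases hab : a = b
    · subst hab; simp
    · simp [hab]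

theorem H3 [Finite F₀] (hm : 1 ≤ m) (r : ℕ) [CharP F₀ r] (p : ℕ) (hpr : Nat.Coprime p r)
    (j : F₀ →+* F) (t₀ : Sp0) (ht₀ : orderOf (lam (m := m) j t₀) = p)
    (N : Subgroup Sp0) (hN : N.Normal) :
    (∀ n ∈ N, lam (m := m) j n = 1) ∨ ∃ t ∈ N, orderOf (lam (m := m) j t) = p := by
  rcases normal_dich hm N hN with h | h
  · left
    exact fun n hn => lam_center hm j n (h hn)
  · right
    refine ⟨t₀ ^ r, pow_mem r N hN h t₀, ?_⟩
    rw [map_pow, Nat.Coprime.orderOf_pow (by rw [ht₀]; exact hpr), ht₀]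

/-! ### automorphisms fixing `Sp(F₀)` pointwise -/

theorem fix_lam [Fintype F] (r : ℕ) [Fact r.Prime] [CharP F r] (hm : 2 ≤ m) (j : F₀ →+* F)
    (β : AutP) (hβ : ∀ s, β (lam j s) = lam j s) :
    ∃ τ : F ≃+* F, β = fHom τ ∧ ∀ a, τ (j a) = j a := by
  have hm0 : 0 < m := by omega
  have hex : ∃ (g : GS) (τ : F ≃+* F), β = aut g τ := by
    by_cases h4 : m = 2 → r ≠ 2
    · obtain ⟨g, τ, hg, h⟩ := Cfsg.Agent.Lib.Helper42AutSpI.aut_induced (p := r) hm h4 β
      exact ⟨⟨g, hg⟩, τ, (induced_iff' ⟨g, hg⟩ τ β).1 h⟩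
    · push Not at h4
      obtain ⟨rfl, rfl⟩ := h4
      apply Cfsg.Agent.Lib.Helper42Sp4Aut.exists_aut_of_one β (v := Pi.single (Sum.inl 0) 1)
        (b := 1)
      have := hβ (tv 2 (Pi.single (Sum.inl 0) 1) 1)
      rw [lam_apply, mapSp_tv, comp_single0, map_one] at this
      exact this
  obtain ⟨g, τ, rfl⟩ := hex
  have key : ∀ (v : Fin m ⊕ Fin m → F₀) (a : F₀),
      tv m ((g.1 : Mat) *ᵥ (τ ∘ (j ∘ v))) ((mu hm0 g : F)⁻¹ * τ (j a)) = tv m (j ∘ v) (j a) := by
    intro v a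
    apply mk_tv_eq hm
    rw [← aut_tv, ← mapSp_tv]
    exact hβ _
  have hne : ∀ v : V, v ≠ 0 → (g.1 : Mat) *ᵥ (τ ∘ v) ≠ 0 := by
    intro v hv h0
    apply hv
    apply comp_injective τ
    apply gl_mulVec_injective g.1
    rw [h0]
    have : τ ∘ (0 : V) = 0 := by funext k; simp
    rw [this, mulVec_zero]
  have hc : (mu hm0 g : F)⁻¹ * τ (j 1) ≠ 0 := by
    rw [map_one, map_one, mul_one]
    exact inv_ne_zero (mu hm0 g).ne_zero
  have hpar : ∀ v : Fin m ⊕ Fin m → F₀, j ∘ v ≠ 0 →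
      ∃ c : F, (g.1 : Mat) *ᵥ (τ ∘ (j ∘ v)) = c • (j ∘ v) := fun v hv =>
    tv_par (hne _ hv) hc (key v 1)
  have hs : ∀ k : Fin m ⊕ Fin m, (Pi.single k 1 : V) ≠ 0 := fun k =>
    Cfsg.Agent.Lib.Helper42AutSpF.single_ne_zero k
  choose! l hl using fun k => hpar (Pi.single k 1) (by rw [comp_single0]; exact hs k)
  simp only [comp_single0, comp_single] at hl
  have hll : ∀ k k', l k = l k' := by
    intro k k'
    by_cases hkk : k = k'
    · rw [hkk]
    have hne' : (Pi.single k 1 + Pi.single k' 1 : V) ≠ 0 := by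
      intro h0
      have := congrFun h0 k
      simp [Pi.single_apply, hkk] at this
    obtain ⟨c, hc'⟩ := hpar (Pi.single k 1 + Pi.single k' 1)
      (by rw [comp_add0, comp_single0, comp_single0]; exact hne')
    rw [comp_add0, comp_single0, comp_single0, comp_add, comp_single, comp_single, mulVec_add,
      hl, hl] at hc'
    have h1 := congrFun hc' k
    have h2 := congrFun hc' k'
    simp [Pi.single_apply, hkk, Ne.symm hkk] at h1 h2
    rw [h1, h2]
  let k0 : Fin m ⊕ Fin m := Sum.inl ⟨0, hm0⟩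
  have hg : (g.1 : Mat) = l k0 • 1 := by
    apply Matrix.ext_of_mulVec_single
    intro k
    rw [hl, hll k k0, smul_mulVec, one_mulVec]
  have hl0 : l k0 ≠ 0 := by
    intro h0
    have := hne _ (hs k0)
    rw [comp_single, hl, h0, zero_smul] at this
    exact this rfl
  have hsc : g.1 ∈ Geo.scalars (Fin m ⊕ Fin m) F :=
    (Geo.mem_scalars_iff _).2 ⟨Units.mk0 _ hl0, hg⟩
  refine ⟨τ, by rw [aut_eq, cHom_scalar g hsc, one_mul], ?_⟩
  have hmu : (mu hm0 g : F) = l k0 ^ 2 := by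
    apply mu_unique
    intro u v
    rw [hg, smul_mulVec, smul_mulVec, one_mulVec, one_mulVec, sympForm_smul_left,
      sympForm_smul_right]
    ring
  intro a
  have h1 := key (Pi.single k0 1) a
  rw [comp_single0, comp_single, hl, tv_smul, hmu] at h1
  have h2 := tv_inj (hs k0) h1
  have h3 : l k0 ^ 2 * ((l k0 ^ 2)⁻¹ * τ (j a)) = τ (j a) := by field_simp
  rw [← h3, h2]

theorem H5 [Fintype F] (r : ℕ) [Fact r.Prime] [CharP F r] (hm : 2 ≤ m) (σ : F ≃+* F)
    (j : F₀ →+* F) (hj : ∀ a, σ a = a ↔ a ∈ Set.range j) (p : ℕ) (hσ : σ ^ p = 1)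
    (β : AutP) (hβ : ∀ s, β (lam j s) = lam j s) : β ^ p = 1 := by
  obtain ⟨τ, rfl, hτ⟩ := fix_lam r hm j β hβ
  have h1 : τ ∈ Subgroup.zpowers σ := by
    apply mem_zpowers_of_fix
    intro a ha
    obtain ⟨b, rfl⟩ := (hj a).1 ha
    exact hτ b
  obtain ⟨n, rfl⟩ := Subgroup.mem_zpowers_iff.1 h1
  rw [← map_pow, ← zpow_natCast, ← _root_.zpow_mul, mul_comm, _root_.zpow_mul, zpow_natCast, hσ,
    _root_.one_zpow, map_one]

/-! ### an element of order `p` -/

/-- the involution `diag(-1, 1, …, 1, -1, 1, …, 1)` -/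
def invD (m : ℕ) (F₀ : Type*) [Field F₀] : Matrix (Fin m) (Fin m) F₀ :=
  Matrix.diagonal (fun i : Fin m => if (i : ℕ) = 0 then (-1 : F₀) else 1)

theorem invD_mul : invD m F₀ * invD m F₀ = 1 := by
  unfold invD
  rw [Matrix.diagonal_mul_diagonal, ← Matrix.diagonal_one]
  congr 1
  funext i
  split_ifs <;> simp

theorem invD_transpose : (invD m F₀)ᵀ = invD m F₀ := Matrix.diagonal_transpose _

def invT (m : ℕ) (F₀ : Type*) [Field F₀] : Matrix.symplecticGroup (Fin m) F₀ :=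
  ⟨Matrix.fromBlocks (invD m F₀) 0 0 (invD m F₀), by
    rw [SymplecticGroup.mem_iff, Matrix.J, fromBlocks_transpose, fromBlocks_multiply,
      fromBlocks_multiply]
    simp [invD_transpose, invD_mul]⟩

theorem invT_mul : invT m F₀ * invT m F₀ = 1 := by
  apply Subtype.ext
  show Matrix.fromBlocks (invD m F₀) 0 0 (invD m F₀) * Matrix.fromBlocks (invD m F₀) 0 0 (invD m F₀)
    = 1
  rw [fromBlocks_multiply]
  simp [invD_mul]

theorem orderOf_lam_invT (hm : 2 ≤ m) (j : F₀ →+* F) (h2 : (2 : F) ≠ 0) :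
    orderOf (lam j (invT m F₀)) = 2 := by
  have hne : (-1 : F) ≠ 1 := by
    intro h
    apply h2
    have : (2 : F) = 1 - (-1) := by ring
    rw [this, h, sub_self]
  apply orderOf_eq_prime
  · rw [← map_pow, pow_two, invT_mul, map_one]
  · rw [lam_apply, Ne, QuotientGroup.eq_one_iff,
      Cfsg.Agent.Lib.Helper45Sp.mem_center_iff (by omega)]
    rintro (h | h)
    · have := congrFun (congrFun h (Sum.inl ⟨0, by omega⟩)) (Sum.inl ⟨0, by omega⟩)
      rw [mapSp_coe] at this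
      simp [invT, invD] at this
      exact hne this
    · have := congrFun (congrFun h (Sum.inl ⟨1, by omega⟩)) (Sum.inl ⟨1, by omega⟩)
      rw [mapSp_coe] at this
      simp [invT, invD] at this
      exact hne this.symm

theorem exists_t0 [Finite F] (r : ℕ) [Fact r.Prime] [CharP F r] (hm : 2 ≤ m) (σ : F ≃+* F)
    (j : F₀ →+* F) (hj : ∀ a, σ a = a ↔ a ∈ Set.range j) (p : ℕ) [Fact p.Prime] (hpr : p ≠ r)
    (hdvd : p ∣ Nat.card ↥(MonoidHom.eqLocus (fHom σ : AutP).toMonoidHom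
      (MonoidHom.id (Cfsg.PSp m F)))) :
    ∃ t₀ : Sp0, orderOf (lam (m := m) j t₀) = p := by
  have hp : p.Prime := Fact.out
  have hr : r.Prime := Fact.out
  by_cases hp2 : p = 2
  · subst hp2
    refine ⟨invT m F₀, orderOf_lam_invT hm j ?_⟩
    intro h
    have h1 : ((2 : ℕ) : F) = 0 := by exact_mod_cast h
    rw [CharP.cast_eq_zero_iff F r] at h1
    exact hpr ((Nat.prime_dvd_prime_iff_eq hr Nat.prime_two).1 h1).symm
  · obtain ⟨k, hk⟩ := exists_prime_orderOf_dvd_card' p hdvd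
    rw [← Subgroup.orderOf_coe] at hk
    have hfix : fHom σ (k : Cfsg.PSp m F) = k := k.2
    obtain ⟨s, hs⟩ := QuotientGroup.mk_surjective (k : Cfsg.PSp m F)
    rw [← hs] at hfix hk
    obtain ⟨z, hz, hu⟩ := exists_center σ s hfix
    have hzz : z * z = 1 := by
      apply Subtype.ext
      show (z : Mat) * (z : Mat) = 1
      rcases (Cfsg.Agent.Lib.Helper45Sp.mem_center_iff (by omega) z).1 hz with h | h
      · rw [h, mul_one]
      · rw [h]; simp
    rw [Subgroup.mem_center_iff] at hz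
    have h1 : sg σ (s * s) = s * s := by
      rw [map_mul, hu]
      calc s * z * (s * z) = s * (z * s) * z := by group
        _ = s * (s * z) * z := by rw [← hz s]
        _ = s * s * (z * z) := by group
        _ = _ := by rw [hzz, mul_one]
    obtain ⟨t, ht⟩ := descentSp σ j hj _ h1
    refine ⟨t, ?_⟩
    rw [lam_apply, ht]
    have h2 : π (s * s) = (π s) ^ 2 := by rw [pow_two]; rfl
    rw [h2, Nat.Coprime.orderOf_pow, hk]
    rw [hk]
    exact (Nat.coprime_primes hp Nat.prime_two).2 hp2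

/-! ### the standard field automorphism -/

theorem field_case [Fintype F] (r : ℕ) [Fact r.Prime] [CharP F r] (hm : 2 ≤ m) (σ : F ≃+* F)
    (p : ℕ) [Fact p.Prime] (hpr : p ≠ r) (hσ : σ ^ p = 1)
    (A : Subgroup AutP) (hinn : ∀ k : Cfsg.PSp m F, MulAut.conj k ∈ A) :
    pPrimeCore p ↥(A ⊓ Subgroup.centralizer {(fHom σ : AutP)}) ≠ ⊥ ↔
      Nat.Coprime p (Nat.card ↥(MonoidHom.eqLocus (fHom σ : AutP).toMonoidHom
        (MonoidHom.id (Cfsg.PSp m F)))) := by
  have hp : p.Prime := Fact.out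
  have hr : r.Prime := Fact.out
  have hm0 : 0 < m := by omega
  let F₀ := (σ : F →+* F).eqLocusField (RingHom.id F)
  let j : F₀ →+* F := F₀.subtype
  have hj : ∀ a, σ a = a ↔ a ∈ Set.range j := by
    intro a
    constructor
    · intro ha
      exact ⟨⟨a, ha⟩, rfl⟩
    · rintro ⟨b, rfl⟩
      exact b.2
  have hchar : CharP F₀ r := RingHom.charP j j.injective r
  have hfin : Finite F₀ := Finite.of_injective j j.injective
  constructor
  · intro h
    by_contra hcop
    rw [hp.coprime_iff_not_dvd, not_not] at hcop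
    obtain ⟨t₀, ht₀⟩ := exists_t0 r hm σ j hj p hpr hcop
    exact h (Cfsg.Agent.Lib.Helper42BalA.core_eq_bot (lam j) (fHom σ) p (conj_injective hm)
      (H2 σ j hj) (H3 (by omega) r p ((Nat.coprime_primes hp hr).2 hpr) j t₀ ht₀)
      (H4 σ j hj) (H5 r hm σ j hj p hσ) A hinn)
  · intro hcop
    apply Cfsg.Agent.Lib.Helper42BalA.core_ne_bot_of_fix (conj_injective hm) A hinn _ p hcop
    refine ⟨lam j (tv m (Pi.single (Sum.inl ⟨0, hm0⟩) 1) 1), H2 σ j hj _, ?_⟩
    rw [lam_apply, mapSp_tv, comp_single0, map_one]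
    exact mk_tv_ne_one hm (Cfsg.Agent.Lib.Helper42AutSpF.single_ne_zero _) one_ne_zero

end Cfsg.Agent.Lib.Helper42BalB
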