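import Mathlib
import Cfsg.Prelude
import Cfsg.Agent.Lib.Helper7Herm
import Cfsg.Agent.Lib.Helper7GU
import Cfsg.Agent.Lib.Helper50Aut
import Cfsg.Agent.Lib.Helper50AutStr
import Cfsg.Agent.Lib.Helper50Out
import Cfsg.Agent.Lib.Helper50H90
import Cfsg.Agent.Lib.Helper50Twist
import Cfsg.Agent.Lib.Helper50Split
import Cfsg.Agent.Lib.Helper50Std
import Cfsg.Agent.Lib.Helper50Cent

set_option autoImplicit false

namespace Cfsg.Agent.Lib.Helper50GF

open Matrix Cfsg.Agent.Lib.Helper50Aut Cfsg.Agent.Lib.Helper50AutStr Cfsg.Agent.Lib.Helper50H90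
  Cfsg.Agent.Lib.Helper50Twist Cfsg.Agent.Lib.Helper50Split Cfsg.Agent.Lib.Helper50Out
  Cfsg.Agent.Lib.Helper50Cent

variable {F : Type*} [Field F] {n : ℕ}

local notation "SLn" => Matrix.SpecialLinearGroup (Fin n) F
local notation "Mn" => Matrix (Fin n) (Fin n) F
local notation "AutP" => MulAut (Matrix.ProjectiveSpecialLinearGroup (Fin n) F)
local notation "detG" => (Matrix.GeneralLinearGroup.det : GL (Fin n) F →* Fˣ)

theorem unique_involution {G : Type*} [Group G] [IsCyclic G] [Finite G] {a b : G}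
    (ha : orderOf a = 2) (hb : orderOf b = 2) : a = b := by
  classical
  have : Fintype G := Fintype.ofFinite G
  have hd : 2 ∣ Fintype.card G := by rw [← ha]; exact orderOf_dvd_card
  have h1 := IsCyclic.card_orderOf_eq_totient hd
  rw [Nat.totient_two] at h1
  exact Finset.card_le_one.1 h1.le a (by simp [ha]) b (by simp [hb])

theorem ringAut_comm [Finite F] (ρ σ : F ≃+* F) : ρ * σ = σ * ρ := by
  have : Fintype F := Fintype.ofFinite F
  obtain ⟨p, hp⟩ := CharP.exists F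
  obtain ⟨k, hpp, hk⟩ := FiniteField.card F p
  have : Fact p.Prime := ⟨hpp⟩
  have hcyc := (ringAut_cyclic_card hk).1
  exact (IsCyclic.commGroup (α := F ≃+* F)).mul_comm ρ σ

/-- the involution of a field with `q₀²` elements is the `q₀`-th power map -/
theorem involution_eq_pow [Fintype F] {q₀ : ℕ} (hF : Fintype.card F = q₀ ^ 2) (σ : F ≃+* F)
    (hσ : σ ≠ 1) (hσ2 : σ * σ = 1) (a : F) : σ a = a ^ q₀ := by
  obtain ⟨τ0, hτ0⟩ := Cfsg.Agent.Lib.Helper7Herm.exists_sigma hF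
  have hq := Cfsg.Agent.Lib.Helper7Herm.two_le_q hF
  let τ : F ≃+* F := RingEquiv.ofBijective τ0 (Finite.injective_iff_bijective.1 τ0.injective)
  have hτ : ∀ x, τ x = x ^ q₀ := hτ0
  have hτ2 : τ * τ = 1 := by
    ext x
    show τ (τ x) = x
    rw [hτ, hτ, ← pow_mul, ← pow_two, ← hF, FiniteField.pow_card]
  have hτ1 : τ ≠ 1 := by
    intro h
    obtain ⟨ζ, hζ⟩ := IsCyclic.exists_generator (α := Fˣ)
    have h1 : (ζ : F) ^ q₀ = ζ := by rw [← hτ, h]; rfl
    have h2 : ζ ^ (q₀ - 1) = 1 := by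
      ext
      have h3 : (ζ : F) ^ (q₀ - 1) * ζ = 1 * ζ := by
        rw [← pow_succ, Nat.sub_add_cancel (by omega), h1, one_mul]
      simpa using mul_right_cancel₀ ζ.ne_zero h3
    have h4 := orderOf_dvd_of_pow_eq_one h2
    rw [orderOf_eq_card_of_forall_mem_zpowers hζ, Cfsg.Agent.Lib.Helper7Herm.card_units hF] at h4
    have h5 := Nat.le_of_dvd (by omega) h4
    have h6 : (q₀ - 1) * 2 ≤ (q₀ - 1) * (q₀ + 1) := Nat.mul_le_mul_left _ (by omega)
    omega
  obtain ⟨p, hp⟩ := CharP.exists F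
  obtain ⟨k, hpp, hk⟩ := FiniteField.card F p
  have : Fact p.Prime := ⟨hpp⟩
  have hcyc := (ringAut_cyclic_card hk).1
  have : Finite (F ≃+* F) := Finite.of_injective (fun τ : F ≃+* F => (τ : F → F)) DFunLike.coe_injective
  have e : σ = τ := unique_involution
    (orderOf_eq_prime (by rw [pow_two]; exact hσ2) hσ) (orderOf_eq_prime (by rw [pow_two]; exact hτ2) hτ1)
  rw [e, hτ]

/-- conjugacy under the full automorphism group to an element commuting with field and graph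
automorphisms is conjugacy under the inner-diagonal group -/
theorem conj_under_N [Fintype F] (hn : 2 ≤ n) (t : AutP) (htf : ∀ ρ, Commute (fHom ρ) t)
    (hti : Commute iota t) (α x : AutP) (h : α * x * α⁻¹ = t) :
    Cfsg.IsConjUnder (cHom : GL (Fin n) F →* AutP).range t x := by
  have hx : x = α⁻¹ * t * α⁻¹⁻¹ := by rw [← h]; group
  obtain ⟨a, ρ, e | e⟩ := aut_psl' hn α⁻¹
  · refine ⟨cHom a, ⟨a, rfl⟩, ?_⟩
    rw [hx, e]
    have h1 : fHom ρ * t * (fHom ρ)⁻¹ = t := by rw [(htf ρ).eq, mul_inv_cancel_right]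
    calc cHom a * fHom ρ * t * (cHom a * fHom ρ)⁻¹ = cHom a * (fHom ρ * t * (fHom ρ)⁻¹) * (cHom a)⁻¹ := by
          group
      _ = _ := by rw [h1]
  · refine ⟨cHom a, ⟨a, rfl⟩, ?_⟩
    rw [hx, e]
    have h1 : fHom ρ * t * (fHom ρ)⁻¹ = t := by rw [(htf ρ).eq, mul_inv_cancel_right]
    have h2 : iota * t * iota⁻¹ = t := by rw [hti.eq, mul_inv_cancel_right]
    calc cHom a * fHom ρ * iota * t * (cHom a * fHom ρ * iota)⁻¹
        = cHom a * (fHom ρ * (iota * t * iota⁻¹) * (fHom ρ)⁻¹) * (cHom a)⁻¹ := by group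
      _ = _ := by rw [h2, h1]

theorem gf_commute_fHom [Finite F] (σ ρ : F ≃+* F) :
    Commute (fHom ρ : AutP) (fHom σ * iota) := by
  show fHom ρ * (fHom σ * iota) = fHom σ * iota * fHom ρ
  rw [mul_assoc, iota_mul_fHom, ← mul_assoc, ← mul_assoc, ← map_mul, ← map_mul, ringAut_comm]

theorem gf_commute_iota (σ : F ≃+* F) : Commute (iota : AutP) (fHom σ * iota) := by
  show iota * (fHom σ * iota) = fHom σ * iota * iota
  rw [← mul_assoc, iota_mul_fHom]

theorem scalar_mul_coe (μ : Fˣ) (g : GL (Fin n) F) :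
    ((Matrix.GeneralLinearGroup.scalar (Fin n) μ * g : GL (Fin n) F) : Mn) = (μ : F) • (g : Mn) := by
  rw [Units.val_mul, Matrix.GeneralLinearGroup.coe_scalar]
  ext a b
  simp [Matrix.scalar_apply, Matrix.diagonal_mul]

theorem cHom_scalar_mul (μ : Fˣ) (g : GL (Fin n) F) :
    (cHom (Matrix.GeneralLinearGroup.scalar (Fin n) μ * g) : AutP) = cHom g := by
  rw [map_mul, cHom_eq_one_of_mem_center, one_mul]
  rw [Matrix.GeneralLinearGroup.center_eq_range_scalar]
  exact ⟨μ, rfl⟩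

theorem gf_cent_char [Fintype F] (hn : 2 ≤ n) {q₀ : ℕ} (hF : Fintype.card F = q₀ ^ 2) (σ : F ≃+* F)
    (hσ : σ ≠ 1) (hσ2 : σ * σ = 1) (g : GL (Fin n) F) :
    cHom g ∈ Subgroup.centralizer {(fHom σ * iota : AutP)} ↔
      ∃ (μ : Fˣ) (h : GL (Fin n) F), h ∈ Cfsg.GU n F q₀ ∧
        Matrix.GeneralLinearGroup.scalar (Fin n) μ * g = h := by
  have hσa : ∀ a, σ (σ a) = a := fun a => congrFun (congrArg DFunLike.coe hσ2) a
  have hpow : ∀ M : Mn, M.map (fun x => x ^ q₀) = M.map σ := by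
    intro M
    ext a b
    exact (involution_eq_pow hF σ hσ hσ2 _).symm
  have hmapone : (1 : Mn).map σ = 1 := Matrix.map_one (σ : F →+* F) (map_zero _) (map_one _)
  have hmapmul : ∀ A B : Mn, (A * B).map σ = A.map σ * B.map σ := by
    intro A B
    have := Matrix.map_mul (f := (σ : F →+* F)) (L := A) (M := B)
    simpa only [RingHom.coe_coe] using this
  constructor
  · intro hg
    obtain ⟨z, hz, e⟩ := (mem_centralizer_iff_of_twist hn _ g _ (gf_mul_cHom σ g)).1 hg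
    set G : Mn := (g : Mn) with hG
    set G' : Mn := ((g⁻¹ : GL (Fin n) F) : Mn) with hG'
    have hGG' : G * G' = 1 := gl_mul_inv g
    have e1 : (G'ᵀ).map σ = z • G := e
    have e2 : (G'ᵀ).map σ * (G.map σ)ᵀ = 1 := by
      have h5 : (G.map σ)ᵀ = (Gᵀ).map σ := rfl
      rw [h5, ← hmapmul, ← Matrix.transpose_mul, hGG', Matrix.transpose_one, hmapone]
    have e3 : G * (G.map σ)ᵀ = z⁻¹ • 1 := by
      rw [e1, smul_mul_assoc] at e2
      rw [← e2, smul_smul, inv_mul_cancel₀ hz, one_smul]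
    have e4 : ((G * (G.map σ)ᵀ).map σ)ᵀ = G * (G.map σ)ᵀ := by
      rw [hmapmul, Matrix.transpose_mul]
      congr 1
      ext a b
      exact hσa _
    have e5 : σ z⁻¹ = z⁻¹ := by
      rw [e3] at e4
      have := congrFun (congrFun e4 ⟨0, by omega⟩) ⟨0, by omega⟩
      simpa using this
    have hord : orderOf σ = 2 := orderOf_eq_prime (by rw [pow_two]; exact hσ2) hσ
    obtain ⟨l, hl, e6⟩ := norm_surj σ 2 hord (by norm_num) z⁻¹ (inv_ne_zero hz) e5
    simp only [Nk, map_one, mul_one] at e6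
    refine ⟨Units.mk0 l⁻¹ (inv_ne_zero hl), _, ?_, rfl⟩
    rw [Cfsg.Agent.Lib.Helper7GU.mem_GU_iff hF]
    unfold Cfsg.Agent.Lib.Helper7GU.IsU
    rw [hpow, scalar_mul_coe]
    show (l⁻¹ • G)ᵀ * (l⁻¹ • G).map σ = 1
    have e7 : (l⁻¹ • G) * ((l⁻¹ • G).map σ)ᵀ = 1 := by
      have h9 : ((l⁻¹ • G).map σ)ᵀ = σ l⁻¹ • (G.map σ)ᵀ := by
        ext a b
        simp
      rw [h9, smul_mul_assoc, mul_smul_comm, e3, smul_smul, smul_smul, ← e6, map_inv₀]
      have h10 : σ l ≠ 0 := (map_ne_zero σ).2 hl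
      have : l⁻¹ * (σ l)⁻¹ * (l * σ l) = 1 := by field_simp
      rw [this, one_smul]
    have e8 := mul_eq_one_comm.1 e7
    have e9 := congrArg Matrix.transpose e8
    rwa [Matrix.transpose_mul, Matrix.transpose_transpose, Matrix.transpose_one] at e9
  · rintro ⟨μ, h, hh, e⟩
    rw [← cHom_scalar_mul μ g, e]
    rw [mem_centralizer_iff_of_twist hn _ h _ (gf_mul_cHom σ h)]
    refine ⟨1, one_ne_zero, ?_⟩
    rw [one_smul]
    rw [Cfsg.Agent.Lib.Helper7GU.mem_GU_iff hF] at hh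
    unfold Cfsg.Agent.Lib.Helper7GU.IsU at hh
    rw [hpow] at hh
    have k1 : (((h⁻¹ : GL (Fin n) F) : Mn))ᵀ * (h : Mn)ᵀ = 1 := by
      rw [← Matrix.transpose_mul, gl_mul_inv, Matrix.transpose_one]
    have k2 : (((h⁻¹ : GL (Fin n) F) : Mn))ᵀ = (h : Mn).map σ := by
      calc (((h⁻¹ : GL (Fin n) F) : Mn))ᵀ = (((h⁻¹ : GL (Fin n) F) : Mn))ᵀ * ((h : Mn)ᵀ * (h : Mn).map σ) := by
            rw [hh, mul_one]
        _ = _ := by rw [← mul_assoc, k1, one_mul]
    show ((((h⁻¹ : GL (Fin n) F) : Mn))ᵀ).map σ = (h : Mn)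
    rw [k2, map_map_of_sq σ hσ2]

theorem gf_centralizer_equiv [Fintype F] (hn : 2 ≤ n) {q₀ : ℕ} (hF : Fintype.card F = q₀ ^ 2)
    (σ : F ≃+* F) (hσ : σ ≠ 1) (hσ2 : σ * σ = 1) :
    Nonempty (↥((cHom : GL (Fin n) F →* AutP).range ⊓ Subgroup.centralizer {(fHom σ * iota : AutP)})
      ≃* Cfsg.PGU n F q₀) := by
  let Ψ : ↥(Cfsg.GU n F q₀) →* AutP := cHom.comp (Cfsg.GU n F q₀).subtype
  have hrange : Ψ.range = (cHom : GL (Fin n) F →* AutP).range ⊓
      Subgroup.centralizer {(fHom σ * iota : AutP)} := by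
    ext y
    constructor
    · rintro ⟨h, rfl⟩
      refine ⟨⟨_, rfl⟩, ?_⟩
      show cHom _ ∈ Subgroup.centralizer _
      rw [gf_cent_char hn hF σ hσ hσ2]
      exact ⟨1, h.1, h.2, by rw [map_one, one_mul]; rfl⟩
    · rintro ⟨⟨g, rfl⟩, hg⟩
      obtain ⟨μ, h, hh, e⟩ := (gf_cent_char hn hF σ hσ hσ2 g).1 hg
      refine ⟨⟨h, hh⟩, ?_⟩
      show cHom h = cHom g
      rw [← e, cHom_scalar_mul]
  have hker : Ψ.ker = (Cfsg.Geo.scalars (Fin n) F).subgroupOf (Cfsg.GU n F q₀) := by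
    ext h
    rw [MonoidHom.mem_ker, Subgroup.mem_subgroupOf]
    have h1 : Cfsg.Geo.scalars (Fin n) F = Subgroup.center (GL (Fin n) F) := by
      rw [Matrix.GeneralLinearGroup.center_eq_range_scalar]
      rfl
    rw [h1, ← ker_cHom hn, MonoidHom.mem_ker]
    rfl
  exact ⟨(((QuotientGroup.quotientMulEquivOfEq hker.symm).trans
    (QuotientGroup.quotientKerEquivRange Ψ)).trans (MulEquiv.subgroupCongr hrange)).symm⟩

theorem gf_split_count [Fintype F] (hn : 2 ≤ n) {q₀ : ℕ} (hF : Fintype.card F = q₀ ^ 2)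
    (σ : F ≃+* F) (hσ : σ ≠ 1) (hσ2 : σ * σ = 1) :
    Cfsg.splitClassCount (Cfsg.inndiagPSL n F) (Cfsg.Inn (Matrix.ProjectiveSpecialLinearGroup (Fin n) F))
      (fHom σ * iota) = Nat.gcd n (q₀ - 1) := by
  have hq := Cfsg.Agent.Lib.Helper7Herm.two_le_q hF
  rw [split_count hn (fHom σ * iota) (powMonoidHom (q₀ + 1) : Fˣ →* Fˣ).ker]
  · congr 1
    rw [IsCyclic.index_powMonoidHom_ker, Cfsg.Agent.Lib.Helper7Herm.card_units hF,
      Nat.gcd_eq_right (Dvd.intro_left _ rfl), Nat.mul_div_cancel _ (by omega)]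
  · intro g hg
    obtain ⟨μ, h, hh, e⟩ := (gf_cent_char hn hF σ hσ hσ2 g).1 hg
    have e1 := congrArg detG e
    rw [map_mul, Matrix.GeneralLinearGroup.det_scalar, Fintype.card_fin] at e1
    have e2 : detG g = (μ⁻¹) ^ n * detG h := by
      rw [← e1, inv_pow, inv_mul_cancel_left]
    rw [e2]
    refine Subgroup.mul_mem_sup ⟨μ⁻¹, rfl⟩ ?_
    rw [MonoidHom.mem_ker, powMonoidHom_apply]
    rw [Cfsg.Agent.Lib.Helper7GU.mem_GU_iff hF] at hh
    unfold Cfsg.Agent.Lib.Helper7GU.IsU at hh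
    have h1 := congrArg Matrix.det hh
    obtain ⟨τ0, hτ0⟩ := Cfsg.Agent.Lib.Helper7Herm.exists_sigma hF
    have h2 : (h : Mn).map (fun x => x ^ q₀) = τ0.mapMatrix (h : Mn) := by
      ext a b
      simp [hτ0]
    rw [Matrix.det_mul, Matrix.det_transpose, h2, ← RingHom.map_det, hτ0, Matrix.det_one, ← pow_succ'] at h1
    ext
    simpa using h1
  · intro a ha
    rw [MonoidHom.mem_ker, powMonoidHom_apply] at ha
    have ha' : (a : F) ^ (q₀ + 1) = 1 := by
      have := congrArg Units.val ha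
      simpa using this
    let i0 : Fin n := ⟨0, by omega⟩
    let lam : Fin n → F := Function.update (fun _ => 1) i0 (a : F)
    have hlam : ∀ i, lam i ≠ 0 := by
      intro i
      by_cases hi : i = i0
      · subst hi; simp [lam]
      · simp [lam, hi]
    have hlam2 : ∀ i, lam i * lam i ^ q₀ = 1 := by
      intro i
      by_cases hi : i = i0
      · subst hi
        simp only [lam, Function.update_self]
        rw [← pow_succ', ha']
      · simp [lam, hi]
    refine ⟨Cfsg.Agent.Lib.Helper50Std.diagGL lam hlam, ?_, ?_⟩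
    · rw [gf_cent_char hn hF σ hσ hσ2]
      refine ⟨1, _, ?_, by rw [map_one, one_mul]⟩
      rw [Cfsg.Agent.Lib.Helper7GU.mem_GU_iff hF]
      unfold Cfsg.Agent.Lib.Helper7GU.IsU
      show (Matrix.diagonal lam)ᵀ * (Matrix.diagonal lam).map (fun x => x ^ q₀) = 1
      rw [Matrix.diagonal_transpose, Matrix.diagonal_map (by simp; omega), Matrix.diagonal_mul_diagonal]
      simp only [hlam2]
      exact Matrix.diagonal_one
    · ext
      show (Matrix.diagonal lam).det = a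
      rw [Matrix.det_diagonal, Finset.prod_eq_single i0]
      · simp [lam]
      · intro b _ hb
        simp [lam, hb]
      · intro h; exact absurd (Finset.mem_univ _) h

end Cfsg.Agent.Lib.Helper50GF
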