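import Mathlib
import Cfsg.Prelude
import Cfsg.Agent.Lib.Helper42LBDefs
import Cfsg.Agent.Lib.Helper49Center
import Cfsg.Agent.Lib.Helper49Geo

set_option autoImplicit false
set_option linter.unusedSectionVars false

namespace Cfsg.Agent.Lib.Helper54LBKey

open Matrix Cfsg Cfsg.Agent.Lib.Helper49EichGen Cfsg.Agent.Lib.Helper42LBDefs
  Cfsg.Agent.Lib.Helper49Eich Cfsg.Agent.Lib.Helper49Orth Cfsg.Agent.Lib.Helper49Hyp
  Cfsg.Agent.Lib.Helper49Center Cfsg.Agent.Lib.Helper49Geo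

variable {F : Type*} [Field F] [Fintype F]
variable {ι : Type} [Fintype ι] [DecidableEq ι] (Q : QuadraticForm F (ι → F))

local notation "𝐁" => QuadraticMap.polar (DFunLike.coe Q)
local notation "Iso" => Subtype (fun g => g ∈ Cfsg.isometryGroup F (DFunLike.coe Q))

theorem E_pow {e w : ι → F} (he : Q e = 0) (hw : 𝐁 e w = 0) (k : ℕ) :
    (E Q e w) ^ k = E Q e ((k : F) • w) := by
  induction k with
  | zero => simp [E_zero]
  | succ n ih =>
    rw [pow_succ, ih, E_mul Q he (by rw [QuadraticMap.polar_smul_right, hw, smul_zero]) hw]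
    congr 1
    push_cast
    rw [add_smul, one_smul]

theorem E_pow_card {e w : ι → F} (he : Q e = 0) (hw : 𝐁 e w = 0) :
    (E Q e w) ^ (Fintype.card F) = 1 := by
  rw [E_pow Q he hw, FiniteField.cast_card_eq_zero, zero_smul, E_zero]

theorem coprime_card_four (h2 : (2 : F) ≠ 0) : Nat.Coprime (Fintype.card F) 4 := by
  have h1 : ringChar F ≠ 2 := by
    intro h
    apply h2
    have := ringChar.Nat.cast_ringChar (R := F)
    rw [h] at this
    exact_mod_cast this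
  have h3 : Odd (Fintype.card F) := Nat.odd_iff.2 (FiniteField.odd_card_of_char_ne_two h1)
  have h4 : Nat.Coprime (Fintype.card F) 2 := Nat.coprime_two_right.2 h3
  exact Nat.Coprime.pow_right 2 h4

/-- **Key lemma.** A `2`-element of the form `u₁ (x u₂ x⁻¹) u₃` with `x ∈ N` and the `uᵢ` in one
unipotent group `{E Q e w}` lies in the normal subgroup `N`. -/
theorem mem_of_pow_four (h2 : (2 : F) ≠ 0) (N : Subgroup ↥(TT Q)) (hN : N.Normal) (x : ↥(TT Q))
    (hx : x ∈ N) {e w₁ w₂ w₃ : ι → F} (he : Q e = 0) (h1 : 𝐁 e w₁ = 0) (h2' : 𝐁 e w₂ = 0)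
    (h3 : 𝐁 e w₃ = 0) (t : ↥(TT Q))
    (ht : (t : Iso) = E Q e w₁ * ((x : Iso) * E Q e w₂ * (x : Iso)⁻¹) * E Q e w₃)
    (ht4 : t ^ 4 = 1) : t ∈ N := by
  let φ := QuotientGroup.mk' N
  let a₁ : ↥(TT Q) := ⟨E Q e w₁, E_mem_TT Q he h1⟩
  let a₂ : ↥(TT Q) := ⟨E Q e w₂, E_mem_TT Q he h2'⟩
  let a₃ : ↥(TT Q) := ⟨E Q e w₃, E_mem_TT Q he h3⟩
  have e1 : t = a₁ * (x * a₂ * x⁻¹) * a₃ := Subtype.ext ht
  have hφx : φ x = 1 := (QuotientGroup.eq_one_iff x).2 hx
  have e2 : φ t = φ (a₁ * a₂ * a₃) := by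
    rw [e1]
    simp only [map_mul, map_inv, hφx, one_mul, mul_one, inv_one]
  have h12 : 𝐁 e (w₁ + w₂) = 0 := by rw [QuadraticMap.polar_add_right, h1, h2', add_zero]
  have h123 : 𝐁 e (w₁ + w₂ + w₃) = 0 := by rw [QuadraticMap.polar_add_right, h12, h3, add_zero]
  have e3 : (a₁ * a₂ * a₃) ^ (Fintype.card F) = 1 := by
    apply Subtype.ext
    change (E Q e w₁ * E Q e w₂ * E Q e w₃) ^ (Fintype.card F) = 1
    rw [E_mul Q he h1 h2', E_mul Q he h12 h3, E_pow_card Q he h123]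
  have e4 : (φ t) ^ (Fintype.card F) = 1 := by rw [e2, ← map_pow, e3, map_one]
  have e5 : (φ t) ^ 4 = 1 := by rw [← map_pow, ht4, map_one]
  have e6 : orderOf (φ t) ∣ Nat.gcd (Fintype.card F) 4 :=
    Nat.dvd_gcd (orderOf_dvd_of_pow_eq_one e4) (orderOf_dvd_of_pow_eq_one e5)
  rw [coprime_card_four h2] at e6
  have e7 : φ t = 1 := orderOf_eq_one_iff.1 (Nat.dvd_one.1 e6)
  exact (QuotientGroup.eq_one_iff t).1 e7

end Cfsg.Agent.Lib.Helper54LBKey
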