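import Mathlib
import Cfsg.Prelude
import Cfsg.Agent.Lib.Helper54LBKey

set_option autoImplicit false
set_option linter.unusedSectionVars false

namespace Cfsg.Agent.Lib.Helper54LBO6

open Matrix Cfsg Cfsg.Agent.Lib.Helper49EichGen Cfsg.Agent.Lib.Helper42LBDefs
  Cfsg.Agent.Lib.Helper49Eich Cfsg.Agent.Lib.Helper49Orth Cfsg.Agent.Lib.Helper49Hyp
  Cfsg.Agent.Lib.Helper49Center Cfsg.Agent.Lib.Helper49Geo Cfsg.Agent.Lib.Helper54LBKey

variable {F : Type*} [Field F] [Fintype F]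
variable {ι : Type} [Fintype ι] [DecidableEq ι] (Q : QuadraticForm F (ι → F))

local notation "𝐁" => QuadraticMap.polar (DFunLike.coe Q)
local notation "Iso" => Subtype (fun g => g ∈ Cfsg.isometryGroup F (DFunLike.coe Q))

/-- a hyperbolic quadruple -/
structure HQ (e₁ e₂ f₁ f₂ : ι → F) : Prop where
  e1 : Q e₁ = 0
  e2 : Q e₂ = 0
  f1 : Q f₁ = 0
  f2 : Q f₂ = 0
  e1f1 : 𝐁 e₁ f₁ = 1
  e2f2 : 𝐁 e₂ f₂ = 1
  e1e2 : 𝐁 e₁ e₂ = 0
  e1f2 : 𝐁 e₁ f₂ = 0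
  e2f1 : 𝐁 e₂ f₁ = 0
  f1f2 : 𝐁 f₁ f₂ = 0

variable {Q}

theorem HQ.linearIndependent {e₁ e₂ f₁ f₂ : ι → F} (H : HQ Q e₁ e₂ f₁ f₂) :
    LinearIndependent F ![e₁, f₁, e₂, f₂] := by
  rw [Fintype.linearIndependent_iff]
  intro g hg
  rw [Fin.sum_univ_four] at hg
  simp only [Matrix.cons_val_zero, Matrix.cons_val_one, Matrix.cons_val] at hg
  have c := QuadraticMap.polar_comm (⇑Q)
  have s1 := polar_self_of_singular Q H.e1
  have s2 := polar_self_of_singular Q H.e2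
  have s3 := polar_self_of_singular Q H.f1
  have s4 := polar_self_of_singular Q H.f2
  have key : ∀ y : ι → F, g 0 * 𝐁 e₁ y + g 1 * 𝐁 f₁ y + g 2 * 𝐁 e₂ y + g 3 * 𝐁 f₂ y = 0 := by
    intro y
    have := congrArg (fun v => 𝐁 v y) hg
    simp only [QuadraticMap.polar_add_left, QuadraticMap.polar_smul_left, smul_eq_mul,
      QuadraticMap.polar_zero_left] at this
    exact this
  have k1 := key f₁
  have k2 := key e₁
  have k3 := key f₂
  have k4 := key e₂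
  rw [H.e1f1, s3, H.e2f1, c f₂ f₁, H.f1f2] at k1
  rw [s1, c f₁ e₁, H.e1f1, c e₂ e₁, H.e1e2, c f₂ e₁, H.e1f2] at k2
  rw [H.e1f2, H.f1f2, H.e2f2, s4] at k3
  rw [H.e1e2, c f₁ e₂, H.e2f1, s2, c f₂ e₂, H.e2f2] at k4
  intro i
  fin_cases i
  · simpa using k1
  · simpa using k2
  · simpa using k3
  · simpa using k4

theorem HQ.expand {e₁ e₂ f₁ f₂ : ι → F} (H : HQ Q e₁ e₂ f₁ f₂)
    (hQ : (QuadraticMap.polarBilin Q).Nondegenerate) (hn : Fintype.card ι = 4) (x : ι → F) :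
    x = 𝐁 x f₁ • e₁ + 𝐁 x e₁ • f₁ + 𝐁 x f₂ • e₂ + 𝐁 x e₂ • f₂ := by
  have hspan : Submodule.span F (Set.range ![e₁, f₁, e₂, f₂]) = ⊤ :=
    H.linearIndependent.span_eq_top_of_card_eq_finrank' (by
      rw [Module.finrank_fintype_fun_eq_card, hn]; rfl)
  set y := x - (𝐁 x f₁ • e₁ + 𝐁 x e₁ • f₁ + 𝐁 x f₂ • e₂ + 𝐁 x e₂ • f₂) with hy
  have c := QuadraticMap.polar_comm (⇑Q)
  have s1 := polar_self_of_singular Q H.e1
  have s2 := polar_self_of_singular Q H.e2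
  have s3 := polar_self_of_singular Q H.f1
  have s4 := polar_self_of_singular Q H.f2
  have exp : ∀ z, 𝐁 y z = 𝐁 x z - (𝐁 x f₁ * 𝐁 e₁ z + 𝐁 x e₁ * 𝐁 f₁ z + 𝐁 x f₂ * 𝐁 e₂ z
      + 𝐁 x e₂ * 𝐁 f₂ z) := by
    intro z
    rw [hy]
    simp only [QuadraticMap.polar_sub_left, QuadraticMap.polar_add_left,
      QuadraticMap.polar_smul_left, smul_eq_mul]
  have hall : ∀ z, 𝐁 y z = 0 := by
    intro z
    have hz : z ∈ Submodule.span F (Set.range ![e₁, f₁, e₂, f₂]) := by rw [hspan]; trivial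
    induction hz using Submodule.span_induction with
    | mem z hz =>
      obtain ⟨i, rfl⟩ := hz
      rw [exp]
      fin_cases i
      · simp only [Fin.zero_eta, Matrix.cons_val_zero]
        rw [s1, c f₁ e₁, H.e1f1, c e₂ e₁, H.e1e2, c f₂ e₁, H.e1f2]; ring
      · simp only [Fin.mk_one, Matrix.cons_val_one, Matrix.cons_val_zero]
        rw [H.e1f1, s3, H.e2f1, c f₂ f₁, H.f1f2]; ring
      · simp only [Fin.reduceFinMk, Matrix.cons_val]
        rw [H.e1e2, c f₁ e₂, H.e2f1, s2, c f₂ e₂, H.e2f2]; ring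
      · simp only [Fin.reduceFinMk, Matrix.cons_val]
        rw [H.e1f2, H.f1f2, H.e2f2, s4]; ring
    | zero => simp
    | add a b _ _ ha hb => rw [QuadraticMap.polar_add_right, ha, hb, add_zero]
    | smul r a _ ha => rw [QuadraticMap.polar_smul_right, ha, smul_zero]
  have hy0 : y = 0 := hQ.1 y (fun z => hall z)
  rw [hy, sub_eq_zero] at hy0
  exact hy0


local notation:73 g:74 " ⋆ " x:73 => Matrix.mulVec (Units.val (Subtype.val g)) x

/-- the Weyl element of a hyperbolic quadruple -/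
noncomputable def weyl (Q : QuadraticForm F (ι → F)) (e₁ e₂ f₁ f₂ : ι → F) :
    ↥(Cfsg.isometryGroup F ⇑Q) :=
  E Q e₁ f₂ * E Q e₂ (-f₁) * E Q e₁ f₂

theorem HQ.weyl_apply {e₁ e₂ f₁ f₂ : ι → F} (H : HQ Q e₁ e₂ f₁ f₂) :
    (weyl Q e₁ e₂ f₁ f₂) ⋆ e₁ = -e₂ ∧ (weyl Q e₁ e₂ f₁ f₂) ⋆ e₂ = e₁ ∧
    (weyl Q e₁ e₂ f₁ f₂) ⋆ f₁ = -f₂ ∧ (weyl Q e₁ e₂ f₁ f₂) ⋆ f₂ = f₁ := by
  have c := QuadraticMap.polar_comm (⇑Q)
  have s1 := polar_self_of_singular Q H.e1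
  have s2 := polar_self_of_singular Q H.e2
  have s3 := polar_self_of_singular Q H.f1
  have s4 := polar_self_of_singular Q H.f2
  have hu : ∀ x, (E Q e₁ f₂) ⋆ x = x + 𝐁 x f₂ • e₁ - 𝐁 x e₁ • f₂ := by
    intro x
    rw [E_apply Q H.e1 H.e1f2, H.f2, zero_mul, sub_zero]
  have hu' : ∀ x, (E Q e₂ (-f₁)) ⋆ x = x - 𝐁 x f₁ • e₂ + 𝐁 x e₂ • f₁ := by
    intro x
    rw [E_apply Q H.e2 (by rw [QuadraticMap.polar_neg_right, H.e2f1, neg_zero]),
      QuadraticMap.map_neg, H.f1, zero_mul, sub_zero, QuadraticMap.polar_neg_right]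
    module
  have p1 : 𝐁 f₁ e₁ = 1 := by rw [c, H.e1f1]
  have p2 : 𝐁 f₂ e₂ = 1 := by rw [c, H.e2f2]
  have p3 : 𝐁 e₂ e₁ = 0 := by rw [c, H.e1e2]
  have p4 : 𝐁 f₂ e₁ = 0 := by rw [c, H.e1f2]
  have p5 : 𝐁 f₁ e₂ = 0 := by rw [c, H.e2f1]
  have p6 : 𝐁 f₂ f₁ = 0 := by rw [c, H.f1f2]
  unfold weyl
  refine ⟨?_, ?_, ?_, ?_⟩
  all_goals
    rw [mul_mulVec, mul_mulVec]
    simp only [hu, hu', QuadraticMap.polar_add_left, QuadraticMap.polar_sub_left,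
      QuadraticMap.polar_smul_left, smul_eq_mul, s1, s2, s3, s4, p1, p2, p3, p4, p5, p6, H.e1f1,
      H.e2f2, H.e1e2, H.e1f2, H.e2f1, H.f1f2]
    module

theorem HQ.weyl_sq {e₁ e₂ f₁ f₂ : ι → F} (H : HQ Q e₁ e₂ f₁ f₂)
    (hQ : (QuadraticMap.polarBilin Q).Nondegenerate) (hn : Fintype.card ι = 4) (x : ι → F) :
    (weyl Q e₁ e₂ f₁ f₂ * weyl Q e₁ e₂ f₁ f₂) ⋆ x = -x := by
  obtain ⟨h1, h2, h3, h4⟩ := H.weyl_apply
  rw [mul_mulVec]
  conv_lhs => rw [H.expand hQ hn x]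
  conv_rhs => rw [H.expand hQ hn x]
  simp only [Matrix.mulVec_add, Matrix.mulVec_smul, Matrix.mulVec_neg, h1, h2, h3, h4]
  module


theorem exists_partner (hQ : (QuadraticMap.polarBilin Q).Nondegenerate) {e f₁ w : ι → F}
    (he : Q e = 0) (hf : Q f₁ = 0) (hef : 𝐁 e f₁ = 1) (hw : Q w = 0) (hw0 : w ≠ 0)
    (hew : 𝐁 e w = 0) (hfw : 𝐁 f₁ w = 0) :
    ∃ v, Q v = 0 ∧ 𝐁 v w = 1 ∧ 𝐁 e v = 0 ∧ 𝐁 f₁ v = 0 := by
  have c := QuadraticMap.polar_comm (⇑Q)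
  obtain ⟨y, hy⟩ : ∃ y, 𝐁 w y ≠ 0 := by
    by_contra h
    exact hw0 (hQ.1 w fun y => by_contra fun hy => h ⟨y, hy⟩)
  set y' := y - 𝐁 y f₁ • e - 𝐁 y e • f₁ with hy'
  have se := polar_self_of_singular Q he
  have sf := polar_self_of_singular Q hf
  have sw := polar_self_of_singular Q hw
  have h1 : 𝐁 e y' = 0 := by
    rw [hy']
    simp only [QuadraticMap.polar_sub_right, QuadraticMap.polar_smul_right, smul_eq_mul, se, hef]
    rw [c e y]; ring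
  have h2 : 𝐁 f₁ y' = 0 := by
    rw [hy']
    simp only [QuadraticMap.polar_sub_right, QuadraticMap.polar_smul_right, smul_eq_mul, sf,
      c f₁ e, hef]
    rw [c f₁ y]; ring
  have h3 : 𝐁 y' w = 𝐁 w y := by
    rw [hy']
    simp only [QuadraticMap.polar_sub_left, QuadraticMap.polar_smul_left, smul_eq_mul, hew, hfw]
    rw [c y w]; ring
  set y'' := (𝐁 w y)⁻¹ • y' with hy''
  have h4 : 𝐁 y'' w = 1 := by
    rw [hy'', QuadraticMap.polar_smul_left, h3, smul_eq_mul, inv_mul_cancel₀ hy]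
  have h5 : 𝐁 e y'' = 0 := by rw [hy'', QuadraticMap.polar_smul_right, h1, smul_zero]
  have h6 : 𝐁 f₁ y'' = 0 := by rw [hy'', QuadraticMap.polar_smul_right, h2, smul_zero]
  clear_value y''
  refine ⟨y'' - Q y'' • w, ?_, ?_, ?_, ?_⟩
  · rw [Q_sub, QuadraticMap.map_smul, hw, QuadraticMap.polar_smul_right, h4]
    simp
  · rw [QuadraticMap.polar_sub_left, QuadraticMap.polar_smul_left, sw, h4]
    simp
  · rw [QuadraticMap.polar_sub_right, QuadraticMap.polar_smul_right, hew, h5]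
    simp
  · rw [QuadraticMap.polar_sub_right, QuadraticMap.polar_smul_right, hfw, h6]
    simp

theorem exists_HQ_of_orth (hQ : (QuadraticMap.polarBilin Q).Nondegenerate) {e₁ e₂ : ι → F}
    (h1 : Q e₁ = 0) (h2 : Q e₂ = 0) (h12 : 𝐁 e₁ e₂ = 0) (hne : e₂ ≠ 0)
    (hspan : ∀ c : F, e₁ ≠ c • e₂) : ∃ f₁ f₂, HQ Q e₁ e₂ f₁ f₂ := by
  have c := QuadraticMap.polar_comm (⇑Q)
  have s1 := polar_self_of_singular Q h1
  obtain ⟨y, hy2, hy1⟩ : ∃ y, 𝐁 e₂ y = 0 ∧ 𝐁 e₁ y ≠ 0 := by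
    by_contra hcon
    push Not at hcon
    have := mem_span_of_orth Q hQ (d := e₂) (a := e₁) hcon
    obtain ⟨k, hk⟩ := Submodule.mem_span_singleton.1 this
    exact hspan k hk.symm
  set y' := (𝐁 e₁ y)⁻¹ • y with hy'
  have a1 : 𝐁 e₁ y' = 1 := by
    rw [hy', QuadraticMap.polar_smul_right, smul_eq_mul, inv_mul_cancel₀ hy1]
  have a2 : 𝐁 e₂ y' = 0 := by rw [hy', QuadraticMap.polar_smul_right, hy2, smul_zero]
  clear_value y'
  have b1 : Q (y' - Q y' • e₁) = 0 := by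
    rw [Q_sub, QuadraticMap.map_smul, h1, QuadraticMap.polar_smul_right, c y' e₁, a1]
    simp
  have b2 : 𝐁 e₁ (y' - Q y' • e₁) = 1 := by
    rw [QuadraticMap.polar_sub_right, QuadraticMap.polar_smul_right, s1, a1]
    simp
  have b3 : 𝐁 e₂ (y' - Q y' • e₁) = 0 := by
    rw [QuadraticMap.polar_sub_right, QuadraticMap.polar_smul_right, c e₂ e₁, h12, a2]
    simp
  obtain ⟨v, v1, v2, v3, v4⟩ := exists_partner hQ h1 b1 b2 h2 hne h12 (by rw [c, b3])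
  exact ⟨_, v, h1, h2, b1, v1, b2, by rw [c, v2], h12, v3, b3, v4⟩

theorem exists_HQ_of_hyp (hQ : (QuadraticMap.polarBilin Q).Nondegenerate) (hW : ¬ WittOne Q)
    {e f₁ : ι → F} (he : Q e = 0) (hf : Q f₁ = 0) (hef : 𝐁 e f₁ = 1) :
    ∃ e₂ f₂, HQ Q e e₂ f₁ f₂ := by
  have c := QuadraticMap.polar_comm (⇑Q)
  have se := polar_self_of_singular Q he
  unfold WittOne at hW
  push Not at hW
  obtain ⟨a, a', ha, ha', haa', ha0, hnp⟩ := hW
  have sa := polar_self_of_singular Q ha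
  obtain ⟨b, hb, heb, hbs⟩ : ∃ b, Q b = 0 ∧ 𝐁 e b = 0 ∧ ∀ k : F, b ≠ k • e := by
    by_cases h : 𝐁 e a = 0
    · by_cases hs : ∃ k : F, a = k • e
      · obtain ⟨k, hk⟩ := hs
        have hk0 : k ≠ 0 := by
          rintro rfl
          rw [zero_smul] at hk
          exact ha0 hk
        have hek : e = k⁻¹ • a := by rw [hk, smul_smul, inv_mul_cancel₀ hk0, one_smul]
        refine ⟨a', ha', ?_, ?_⟩
        · rw [hek, QuadraticMap.polar_smul_left, haa', smul_zero]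
        · intro d hd
          apply hnp (d * k⁻¹)
          rw [hd, mul_smul, ← hek]
      · push Not at hs
        exact ⟨a, ha, h, hs⟩
    · refine ⟨a' - (𝐁 e a' / 𝐁 e a) • a, ?_, ?_, ?_⟩
      · rw [Q_sub, QuadraticMap.map_smul, ha, ha', QuadraticMap.polar_smul_right, c a' a, haa']
        simp
      · rw [QuadraticMap.polar_sub_right, QuadraticMap.polar_smul_right, smul_eq_mul]
        field_simp
        ring
      · intro d hd
        have h1 : 𝐁 (a' - (𝐁 e a' / 𝐁 e a) • a) a = 0 := by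
          rw [QuadraticMap.polar_sub_left, QuadraticMap.polar_smul_left, sa, c a' a, haa']
          simp
        rw [hd, QuadraticMap.polar_smul_left, smul_eq_mul] at h1
        have hd0 : d = 0 := (mul_eq_zero.1 h1).resolve_right h
        rw [hd0, zero_smul, sub_eq_zero] at hd
        exact hnp _ hd
  set w := b - 𝐁 b f₁ • e with hw
  have w1 : Q w = 0 := by
    rw [hw, Q_sub, QuadraticMap.map_smul, he, hb, QuadraticMap.polar_smul_right, c b e, heb]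
    simp
  have w2 : 𝐁 e w = 0 := by
    rw [hw, QuadraticMap.polar_sub_right, QuadraticMap.polar_smul_right, se, heb]
    simp
  have w3 : 𝐁 f₁ w = 0 := by
    rw [hw, QuadraticMap.polar_sub_right, QuadraticMap.polar_smul_right, c f₁ e, hef, c f₁ b]
    simp
  have w0 : w ≠ 0 := by
    intro h0
    rw [hw, sub_eq_zero] at h0
    exact hbs _ h0
  obtain ⟨v, v1, v2, v3, v4⟩ := exists_partner hQ he hf hef w1 w0 w2 w3
  exact ⟨v, w, he, v1, hf, w1, hef, v2, v3, w2, by rw [c, v4], w3⟩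

theorem HQ.scalar_of_singular {e₁ e₂ f₁ f₂ : ι → F} (H : HQ Q e₁ e₂ f₁ f₂)
    (hQ : (QuadraticMap.polarBilin Q).Nondegenerate) (hn : Fintype.card ι = 4) (M : Matrix ι ι F)
    (hM : ∀ e, Q e = 0 → ∃ l : F, M *ᵥ e = l • e) : ∃ l : F, M = l • (1 : Matrix ι ι F) := by
  have n1 : e₁ ≠ 0 := by
    rintro rfl
    have := H.e1f1
    simp at this
  have n2 : e₂ ≠ 0 := by
    rintro rfl
    have := H.e2f2
    simp at this
  have n3 : f₁ ≠ 0 := by
    rintro rfl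
    have := H.e1f1
    simp at this
  have n4 : f₂ ≠ 0 := by
    rintro rfl
    have := H.e2f2
    simp at this
  obtain ⟨l₁, h1⟩ := hM e₁ H.e1
  obtain ⟨l₂, h2⟩ := hM e₂ H.e2
  obtain ⟨l₃, h3⟩ := hM f₁ H.f1
  obtain ⟨l₄, h4⟩ := hM f₂ H.f2
  have a1 := eigen_eq_of_orth Q M hM n1 n2 H.e1 H.e2 H.e1e2 h1 h2
  have a2 := eigen_eq_of_orth Q M hM n2 n3 H.e2 H.f1 H.e2f1 h2 h3
  have a3 := eigen_eq_of_orth Q M hM n3 n4 H.f1 H.f2 H.f1f2 h3 h4
  subst a1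
  subst a2
  subst a3
  refine ⟨l₁, ?_⟩
  apply Matrix.mulVec_injective
  funext x
  rw [Matrix.smul_mulVec, Matrix.one_mulVec]
  conv_lhs => rw [H.expand hQ hn x]
  conv_rhs => rw [H.expand hQ hn x]
  simp only [Matrix.mulVec_add, Matrix.mulVec_smul, h1, h2, h3, h4]
  module

theorem E_swap {a b : ι → F} (ha : Q a = 0) (hb : Q b = 0) (hab : 𝐁 a b = 0) :
    E Q a (-b) = E Q b a := by
  apply ext_mulVec
  intro x
  rw [E_apply Q ha (by rw [QuadraticMap.polar_neg_right, hab, neg_zero]),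
    E_apply Q hb (by rw [QuadraticMap.polar_comm, hab]), QuadraticMap.map_neg, hb, ha,
    QuadraticMap.polar_neg_right]
  module


/-- the Weyl element lies in `N`. -/
theorem HQ.finish {e e₂ f₁ f₂ : ι → F} (H : HQ Q e e₂ f₁ f₂) (h2 : (2 : F) ≠ 0)
    (hQ : (QuadraticMap.polarBilin Q).Nondegenerate) (hn : Fintype.card ι = 4)
    (N : Subgroup ↥(TT Q)) (hN : N.Normal) (x : ↥(TT Q)) (hx : x ∈ N) (w : ι → F)
    (hw : 𝐁 e w = 0) (hmid : E Q e₂ (-f₁) = (x : Iso) * E Q e w * (x : Iso)⁻¹) :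
    ∃ t ∈ N, ¬ IsScal (t : ↥(Cfsg.isometryGroup F ⇑Q)) ∧
      IsScal ((t * t : ↥(TT Q)) : ↥(Cfsg.isometryGroup F ⇑Q)) := by
  have hmem : weyl Q e e₂ f₁ f₂ ∈ TT Q := by
    unfold weyl
    exact mul_mem (mul_mem (E_mem_TT Q H.e1 H.e1f2)
      (E_mem_TT Q H.e2 (by rw [QuadraticMap.polar_neg_right, H.e2f1, neg_zero])))
      (E_mem_TT Q H.e1 H.e1f2)
  have hsq := H.weyl_sq hQ hn
  refine ⟨⟨weyl Q e e₂ f₁ f₂, hmem⟩, ?_, ?_, ?_⟩
  · apply mem_of_pow_four Q h2 N hN x hx H.e1 H.e1f2 hw H.e1f2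
    · change weyl Q e e₂ f₁ f₂ = _
      unfold weyl
      rw [hmid]
    · apply Subtype.ext
      change (weyl Q e e₂ f₁ f₂) ^ 4 = 1
      apply ext_mulVec
      intro y
      have : (weyl Q e e₂ f₁ f₂) ^ 4
          = (weyl Q e e₂ f₁ f₂ * weyl Q e e₂ f₁ f₂) * (weyl Q e e₂ f₁ f₂ * weyl Q e e₂ f₁ f₂) := by
        simp only [pow_succ, pow_zero, one_mul, mul_assoc]
      rw [this, mul_mulVec, hsq, hsq, neg_neg, one_mulVec']
  · rintro ⟨c, hc⟩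
    have h1 := H.weyl_apply.1
    change (((weyl Q e e₂ f₁ f₂ : ↥(Cfsg.isometryGroup F ⇑Q)) : GL ι F) : Matrix ι ι F)
      = c • (1 : Matrix ι ι F) at hc
    rw [hc, Matrix.smul_mulVec, Matrix.one_mulVec] at h1
    have h3 := congrArg (fun v => 𝐁 v f₂) h1
    simp only [QuadraticMap.polar_smul_left, QuadraticMap.polar_neg_left, H.e1f2, H.e2f2,
      smul_zero] at h3
    exact one_ne_zero (neg_eq_zero.1 h3.symm)
  · refine ⟨-1, ?_⟩
    change (((weyl Q e e₂ f₁ f₂ * weyl Q e e₂ f₁ f₂ : ↥(Cfsg.isometryGroup F ⇑Q)) : GL ι F) :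
      Matrix ι ι F) = (-1 : F) • (1 : Matrix ι ι F)
    apply Matrix.mulVec_injective
    funext y
    rw [hsq, Matrix.smul_mulVec, Matrix.one_mulVec, neg_one_smul]

theorem TT_H3_four_aux (h2 : (2 : F) ≠ 0)
    (hQ : (QuadraticMap.polarBilin Q).Nondegenerate) (hn : Fintype.card ι = 4) (hW : ¬ WittOne Q) :
    TTH3 Q := by
  intro N hN
  by_cases hall : ∀ x ∈ N, IsScal (x : ↥(Cfsg.isometryGroup F ⇑Q))
  · left; exact hall
  right
  push Not at hall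
  obtain ⟨x, hxN, hxs⟩ := hall
  have c := QuadraticMap.polar_comm (⇑Q)
  -- some hyperbolic quadruple
  obtain ⟨a₁, a₂, b₁, b₂, H0⟩ : ∃ a₁ a₂ b₁ b₂, HQ Q a₁ a₂ b₁ b₂ := by
    have hW' := hW
    unfold WittOne at hW'
    push Not at hW'
    obtain ⟨a, a', ha, ha', haa', ha0, hnp⟩ := hW'
    obtain ⟨f₁, f₂, H⟩ := exists_HQ_of_orth hQ ha' ha (by rw [c, haa']) ha0 hnp
    exact ⟨_, _, _, _, H⟩
  obtain ⟨e, he, hmove⟩ : ∃ e, Q e = 0 ∧ ∀ l : F, (x : Iso) ⋆ e ≠ l • e := by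
    by_contra hcon
    push Not at hcon
    exact hxs (H0.scalar_of_singular hQ hn _ hcon)
  have he0 : e ≠ 0 := by
    rintro rfl
    exact hmove 0 (by simp)
  set e' := (x : Iso) ⋆ e with he'
  have hQe' : Q e' = 0 := by rw [he', iso_apply (Q := ⇑Q)]; exact he
  have conj : ∀ v : ι → F, 𝐁 e' v = 0 →
      𝐁 e ((x : Iso)⁻¹ ⋆ v) = 0 ∧ E Q e' v = (x : Iso) * E Q e ((x : Iso)⁻¹ ⋆ v) * (x : Iso)⁻¹ := by
    intro v hv
    have h1 : 𝐁 e ((x : Iso)⁻¹ ⋆ v) = 0 := by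
      rw [← polar_iso Q (x : Iso), mulVec_inv_mulVec]
      exact hv
    refine ⟨h1, ?_⟩
    rw [E_conj Q (x : Iso) he h1, mulVec_inv_mulVec]
  by_cases hB : 𝐁 e e' = 0
  · obtain ⟨f₁, f₂, H⟩ := exists_HQ_of_orth hQ he hQe' hB (by
        intro h0
        exact hmove 0 (by rw [zero_smul]; exact h0))
      (by
        intro k hk
        have hk0 : k ≠ 0 := by
          rintro rfl
          rw [zero_smul] at hk
          exact he0 hk
        apply hmove k⁻¹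
        rw [hk, smul_smul, inv_mul_cancel₀ hk0, one_smul])
    obtain ⟨h1, h3⟩ := conj (-f₁) (by rw [QuadraticMap.polar_neg_right, H.e2f1, neg_zero])
    exact H.finish h2 hQ hn N hN x hxN _ h1 h3
  · obtain ⟨e₂, f₂, H⟩ := exists_HQ_of_hyp hQ hW (e := e) (f₁ := (𝐁 e e')⁻¹ • e') he
      (by rw [QuadraticMap.map_smul, hQe', smul_zero])
      (by rw [QuadraticMap.polar_smul_right, smul_eq_mul, inv_mul_cancel₀ hB])
    have h4 : 𝐁 e' e₂ = 0 := by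
      have := H.e2f1
      rw [QuadraticMap.polar_smul_right, smul_eq_mul] at this
      rw [c]
      exact (mul_eq_zero.1 this).resolve_left (inv_ne_zero hB)
    obtain ⟨h1, h3⟩ := conj ((𝐁 e e')⁻¹ • e₂) (by
      rw [QuadraticMap.polar_smul_right, h4, smul_zero])
    refine H.finish h2 hQ hn N hN x hxN _ h1 ?_
    rw [E_swap H.e2 H.f1 H.e2f1, E_smul Q hQe' h4, h3]

/-- piece O6 -/
theorem TT_H3_four (h2 : (2 : F) ≠ 0) (Q : QuadraticForm F (ι → F))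
    (hQ : (QuadraticMap.polarBilin Q).Nondegenerate) (hn : Fintype.card ι = 4) (hW : ¬ WittOne Q) :
    TTH3 Q :=
  TT_H3_four_aux h2 hQ hn hW

end Cfsg.Agent.Lib.Helper54LBO6
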