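import Mathlib
import Cfsg.Prelude
import Cfsg.Agent.Lib.Helper42LBDefs
import Cfsg.Agent.Lib.Helper49Orth

set_option autoImplicit false

/-! PROJECT 42, piece O1: `qf_nondeg` and `orth_H2`. -/

namespace Cfsg.Agent.Lib.Helper60LBO1

open Matrix Cfsg Cfsg.Agent.Lib.Helper50Aut Cfsg.Agent.Lib.Helper50AutStr
  Cfsg.Agent.Lib.Helper42BalA Cfsg.Agent.Lib.Helper49EichGen Cfsg.Agent.Lib.Helper42LBDefs

variable {F : Type*} [Field F] {n : ℕ}

local notation "SLn" => Matrix.SpecialLinearGroup (Fin n) F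
local notation "Mn" => Matrix (Fin n) (Fin n) F
local notation "π" => (QuotientGroup.mk : Matrix.SpecialLinearGroup (Fin n) F →
  Matrix.SpecialLinearGroup (Fin n) F ⧸ Subgroup.center (Matrix.SpecialLinearGroup (Fin n) F))
local notation "AutP" => MulAut (Matrix.ProjectiveSpecialLinearGroup (Fin n) F)

theorem qf_apply (M : Mn) (x : Fin n → F) : qf M x = x ⬝ᵥ M *ᵥ x := by
  unfold qf Matrix.toQuadraticForm'
  rw [LinearMap.BilinMap.toQuadraticMap_apply, Matrix.toLinearMap₂'_apply']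

theorem polar_qf (M : Mn) (hM : Mᵀ = M) (x y : Fin n → F) :
    QuadraticMap.polar (qf M) x y = 2 * (x ⬝ᵥ M *ᵥ y) := by
  unfold qf Matrix.toQuadraticForm'
  rw [LinearMap.BilinMap.polar_toQuadraticMap, Matrix.toLinearMap₂'_apply',
    Matrix.toLinearMap₂'_apply']
  have : y ⬝ᵥ M *ᵥ x = x ⬝ᵥ M *ᵥ y := by
    rw [dotProduct_comm, ← Matrix.vecMul_transpose, hM, Matrix.dotProduct_mulVec]
  rw [this, two_mul]

theorem inv_transpose (g : GL (Fin n) F) (hg : (g : Mn)ᵀ = g) :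
    ((g⁻¹ : GL (Fin n) F) : Mn)ᵀ = ((g⁻¹ : GL (Fin n) F) : Mn) := by
  have h1 : (g : Mn) * ((g⁻¹ : GL (Fin n) F) : Mn)ᵀ = 1 := by
    conv_lhs => rw [← hg]
    rw [← Matrix.transpose_mul, gl_inv_mul, Matrix.transpose_one]
  calc ((g⁻¹ : GL (Fin n) F) : Mn)ᵀ
      = (((g⁻¹ : GL (Fin n) F) : Mn) * (g : Mn)) * ((g⁻¹ : GL (Fin n) F) : Mn)ᵀ := by
        rw [gl_inv_mul, one_mul]
    _ = ((g⁻¹ : GL (Fin n) F) : Mn) := by rw [mul_assoc, h1, mul_one]

theorem eq_of_forall_dot (A B : Mn) (h : ∀ x y : Fin n → F, x ⬝ᵥ A *ᵥ y = x ⬝ᵥ B *ᵥ y) : A = B := by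
  ext i j
  have := h (Pi.single i 1) (Pi.single j 1)
  simpa using this

/-- piece O1 (two statements) -/
theorem qf_nondeg (h2 : (2 : F) ≠ 0) (g : GL (Fin n) F) (hg : (g : Mn)ᵀ = g) :
    (QuadraticMap.polarBilin (qf ((g⁻¹ : GL (Fin n) F) : Mn))).Nondegenerate := by
  have hM := inv_transpose g hg
  have key : ∀ x : Fin n → F, (∀ y, x ⬝ᵥ ((g⁻¹ : GL (Fin n) F) : Mn) *ᵥ y = 0) → x = 0 := by
    intro x hx
    have h1 : x ᵥ* ((g⁻¹ : GL (Fin n) F) : Mn) = 0 := by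
      funext j
      have := hx (Pi.single j 1)
      rw [Matrix.dotProduct_mulVec] at this
      simpa using this
    have h3 : (x ᵥ* ((g⁻¹ : GL (Fin n) F) : Mn)) ᵥ* (g : Mn) = 0 := by rw [h1, Matrix.zero_vecMul]
    rwa [Matrix.vecMul_vecMul, gl_inv_mul, Matrix.vecMul_one] at h3
  constructor
  · intro x hx
    apply key
    intro y
    have := hx y
    rw [QuadraticMap.polarBilin_apply_apply, polar_qf _ hM] at this
    exact (mul_eq_zero.mp this).resolve_left h2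
  · intro x hx
    apply key
    intro y
    have := hx y
    rw [QuadraticMap.polarBilin_apply_apply, QuadraticMap.polar_comm, polar_qf _ hM] at this
    exact (mul_eq_zero.mp this).resolve_left h2

theorem orth_H2 (h2 : (2 : F) ≠ 0) (g : GL (Fin n) F) (hg : (g : Mn)ᵀ = g) (s : SLn)
    (hs : s ∈ eichS (qf ((g⁻¹ : GL (Fin n) F) : Mn))) : (cHom g * iota : AutP) (π s) = π s := by
  have hM := inv_transpose g hg
  obtain ⟨t, -, ht⟩ := mem_eichS.mp hs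
  have hiso : ∀ v, qf ((g⁻¹ : GL (Fin n) F) : Mn) ((s : Mn) *ᵥ v) = qf ((g⁻¹ : GL (Fin n) F) : Mn) v := by
    intro v
    have := Cfsg.Agent.Lib.Helper49Orth.iso_apply t v
    rw [ht] at this
    exact this
  have hpol : ∀ x y, QuadraticMap.polar (qf ((g⁻¹ : GL (Fin n) F) : Mn)) ((s : Mn) *ᵥ x) ((s : Mn) *ᵥ y)
      = QuadraticMap.polar (qf ((g⁻¹ : GL (Fin n) F) : Mn)) x y := by
    intro x y
    unfold QuadraticMap.polar
    rw [← Matrix.mulVec_add, hiso, hiso, hiso]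
  have hmat : (s : Mn)ᵀ * ((g⁻¹ : GL (Fin n) F) : Mn) * (s : Mn) = ((g⁻¹ : GL (Fin n) F) : Mn) := by
    apply eq_of_forall_dot
    intro x y
    have := hpol x y
    rw [polar_qf _ hM, polar_qf _ hM] at this
    have h3 := mul_left_cancel₀ h2 this
    rw [← h3, ← Matrix.mulVec_mulVec, ← Matrix.mulVec_mulVec, Matrix.dotProduct_mulVec x,
      Matrix.vecMul_transpose]
  rw [MulAut.mul_apply, iota, cHom_apply, liftAut_mk, liftAut_mk]
  congr 1
  apply Subtype.ext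
  rw [conjGL_coe, invT_coe]
  have h4 : ((s⁻¹ : SLn) : Mn)ᵀ * (s : Mn)ᵀ = 1 := by
    rw [← Matrix.transpose_mul, ← Matrix.SpecialLinearGroup.coe_mul, mul_inv_cancel,
      Matrix.SpecialLinearGroup.coe_one, Matrix.transpose_one]
  calc (g : Mn) * ((s⁻¹ : SLn) : Mn)ᵀ * ((g⁻¹ : GL (Fin n) F) : Mn)
      = (g : Mn) * ((s⁻¹ : SLn) : Mn)ᵀ * ((s : Mn)ᵀ * ((g⁻¹ : GL (Fin n) F) : Mn) * (s : Mn)) := by
        rw [hmat]
    _ = (g : Mn) * (((s⁻¹ : SLn) : Mn)ᵀ * (s : Mn)ᵀ) * ((g⁻¹ : GL (Fin n) F) : Mn) * (s : Mn) := by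
        simp only [mul_assoc]
    _ = (s : Mn) := by rw [h4, mul_one, gl_mul_inv, one_mul]

end Cfsg.Agent.Lib.Helper60LBO1
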