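import Mathlib
import Cfsg.Prelude
import Cfsg.Agent.Lib.Helper42LBDefs
import Cfsg.Agent.Lib.Helper49Orth
import Cfsg.Agent.Lib.Helper49Gram
import Cfsg.Agent.Lib.Helper49Geo

set_option autoImplicit false
set_option linter.unusedVariables false

/-! PROJECT 42, piece O8: `orth_H3` and `orth_ne`. -/

namespace Cfsg.Agent.Lib.Helper60LBO8

open Matrix Cfsg Cfsg.Agent.Lib.Helper50Aut Cfsg.Agent.Lib.Helper50AutStr
  Cfsg.Agent.Lib.Helper42BalA Cfsg.Agent.Lib.Helper49EichGen Cfsg.Agent.Lib.Helper42LBDefs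
  Cfsg.Agent.Lib.Helper49Orth Cfsg.Agent.Lib.Helper49Gram Cfsg.Agent.Lib.Helper49Eich

section gen
variable {F : Type*} [Field F] {ι : Type} [Fintype ι] [DecidableEq ι]

theorem eq_of_forall_dot (A B : Matrix ι ι F) (h : ∀ x y : ι → F, x ⬝ᵥ A *ᵥ y = x ⬝ᵥ B *ᵥ y) :
    A = B := by
  ext i j
  have := h (Pi.single i 1) (Pi.single j 1)
  simpa using this

theorem polar_iso (Q : QuadraticForm F (ι → F)) (g : ↥(Cfsg.isometryGroup F ⇑Q)) (x y : ι → F) :
    QuadraticMap.polar ⇑Q (((g : GL ι F) : Matrix ι ι F) *ᵥ x) (((g : GL ι F) : Matrix ι ι F) *ᵥ y)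
      = QuadraticMap.polar ⇑Q x y := by
  unfold QuadraticMap.polar
  rw [← Matrix.mulVec_add, iso_apply g, iso_apply g, iso_apply g]

theorem detO_mul_self (Q : QuadraticForm F (ι → F)) (hQ : (QuadraticMap.polarBilin Q).Nondegenerate)
    (g : ↥(Cfsg.isometryGroup F ⇑Q)) : detO Q g * detO Q g = 1 := by
  have hA : ((g : GL ι F) : Matrix ι ι F)ᵀ * gram Q * ((g : GL ι F) : Matrix ι ι F) = gram Q := by
    apply eq_of_forall_dot
    intro x y
    rw [← polar_eq, ← polar_iso Q g x y, polar_eq, ← Matrix.mulVec_mulVec, ← Matrix.mulVec_mulVec,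
      Matrix.dotProduct_mulVec x, Matrix.vecMul_transpose]
  have hd := congrArg Matrix.det hA
  rw [Matrix.det_mul, Matrix.det_mul, Matrix.det_transpose] at hd
  apply Units.ext
  rw [Units.val_mul, detO_apply, Units.val_one]
  have h0 := det_gram_ne_zero Q hQ
  have : (((g : GL ι F) : Matrix ι ι F).det * ((g : GL ι F) : Matrix ι ι F).det) * (gram Q).det
      = 1 * (gram Q).det := by
    rw [one_mul]
    linear_combination hd
  exact mul_right_cancel₀ h0 this

theorem detO_TT (h2 : (2 : F) ≠ 0) (Q : QuadraticForm F (ι → F))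
    (hQ : (QuadraticMap.polarBilin Q).Nondegenerate) : TT Q ≤ (detO Q).ker := by
  unfold TT
  rw [Subgroup.closure_le]
  rintro _ ⟨e, w, he, hw, rfl⟩
  show E Q e w ∈ (detO Q).ker
  rw [MonoidHom.mem_ker]
  have hw' : QuadraticMap.polar ⇑Q e ((2 : F)⁻¹ • w) = 0 := by
    rw [QuadraticMap.polar_smul_right, hw, smul_zero]
  have : E Q e w = E Q e ((2 : F)⁻¹ • w) * E Q e ((2 : F)⁻¹ • w) := by
    rw [E_mul Q he hw' hw', ← add_smul, ← two_mul, mul_inv_cancel₀ h2, one_smul]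
  rw [this, map_mul, detO_mul_self Q hQ]

end gen

variable {F : Type*} [Field F] {n : ℕ}

local notation "SLn" => Matrix.SpecialLinearGroup (Fin n) F
local notation "Mn" => Matrix (Fin n) (Fin n) F
local notation "π" => (QuotientGroup.mk : Matrix.SpecialLinearGroup (Fin n) F →
  Matrix.SpecialLinearGroup (Fin n) F ⧸ Subgroup.center (Matrix.SpecialLinearGroup (Fin n) F))
local notation "AutP" => MulAut (Matrix.ProjectiveSpecialLinearGroup (Fin n) F)

theorem det_TT (h2 : (2 : F) ≠ 0) (Q : QuadraticForm F (Fin n → F))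
    (hQ : (QuadraticMap.polarBilin Q).Nondegenerate) (t : ↥(TT Q)) :
    (((t : ↥(Cfsg.isometryGroup F ⇑Q)) : GL (Fin n) F) : Mn).det = 1 := by
  have := detO_TT h2 Q hQ t.2
  rw [MonoidHom.mem_ker] at this
  rw [← detO_apply, this, Units.val_one]

/-- `TT Q → SL_n(F)` -/
noncomputable def toSL (h2 : (2 : F) ≠ 0) (Q : QuadraticForm F (Fin n → F))
    (hQ : (QuadraticMap.polarBilin Q).Nondegenerate) : ↥(TT Q) →* SLn where
  toFun t := ⟨(((t : ↥(Cfsg.isometryGroup F ⇑Q)) : GL (Fin n) F) : Mn), det_TT h2 Q hQ t⟩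
  map_one' := rfl
  map_mul' _ _ := rfl

theorem toSL_mem (h2 : (2 : F) ≠ 0) (Q : QuadraticForm F (Fin n → F))
    (hQ : (QuadraticMap.polarBilin Q).Nondegenerate) (t : ↥(TT Q)) : toSL h2 Q hQ t ∈ eichS Q :=
  mem_eichS.mpr ⟨t, t.2, Units.ext rfl⟩

theorem exists_toSL (h2 : (2 : F) ≠ 0) (Q : QuadraticForm F (Fin n → F))
    (hQ : (QuadraticMap.polarBilin Q).Nondegenerate) {s : SLn} (hs : s ∈ eichS Q) :
    ∃ t : ↥(TT Q), toSL h2 Q hQ t = s := by
  obtain ⟨t, ht, e⟩ := mem_eichS.mp hs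
  exact ⟨⟨t, ht⟩, Subtype.ext (congrArg Units.val e)⟩

theorem mk_eq_one_iff (s : SLn) : π s = 1 ↔ ∃ c : F, (s : Mn) = c • (1 : Mn) := by
  rw [QuotientGroup.eq_one_iff, Matrix.SpecialLinearGroup.mem_center_iff]
  constructor
  · rintro ⟨r, -, h⟩
    refine ⟨r, ?_⟩
    rw [← h, Matrix.smul_one_eq_diagonal]
    rfl
  · rintro ⟨c, h⟩
    refine ⟨c, ?_, ?_⟩
    · have := s.2
      rw [h, Matrix.det_smul, Matrix.det_one, mul_one] at this
      exact this
    · rw [h, Matrix.smul_one_eq_diagonal]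
      rfl

theorem mk_toSL_eq_one_iff (h2 : (2 : F) ≠ 0) (Q : QuadraticForm F (Fin n → F))
    (hQ : (QuadraticMap.polarBilin Q).Nondegenerate) (t : ↥(TT Q)) :
    π (toSL h2 Q hQ t) = 1 ↔ IsScal (t : ↥(Cfsg.isometryGroup F ⇑Q)) := mk_eq_one_iff _

/-- piece O8 (two statements): transport of `TT_H3` to `eichS` -/
theorem orth_H3 (hn : 3 ≤ n) (h2 : (2 : F) ≠ 0) (Q : QuadraticForm F (Fin n → F))
    (hQ : (QuadraticMap.polarBilin Q).Nondegenerate) (hTT : TTH3 Q)
    (N : Subgroup ↥(eichS Q)) (hN : N.Normal) :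
    (∀ x ∈ N, π (x : SLn) = 1) ∨ ∃ t ∈ N, orderOf (π (t : SLn)) = 2 := by
  let f : ↥(TT Q) →* ↥(eichS Q) := (toSL h2 Q hQ).codRestrict (eichS Q) (toSL_mem h2 Q hQ)
  rcases hTT (N.comap f) (hN.comap f) with h | ⟨t, ht, h1, h3⟩
  · left
    intro x hx
    obtain ⟨t, ht⟩ := exists_toSL h2 Q hQ x.2
    have hft : f t = x := Subtype.ext ht
    rw [← ht, mk_toSL_eq_one_iff]
    apply h
    rw [Subgroup.mem_comap, hft]
    exact hx
  · right
    refine ⟨f t, ht, ?_⟩
    have : Fact (Nat.Prime 2) := ⟨Nat.prime_two⟩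
    apply orderOf_eq_prime
    · rw [pow_two]
      have := (mk_toSL_eq_one_iff h2 Q hQ (t * t)).mpr h3
      rw [map_mul] at this
      exact this
    · intro h
      exact h1 ((mk_toSL_eq_one_iff h2 Q hQ t).mp h)

theorem orth_ne [Finite F] (hn : 3 ≤ n) (h2 : (2 : F) ≠ 0) (Q : QuadraticForm F (Fin n → F))
    (hQ : (QuadraticMap.polarBilin Q).Nondegenerate) : ∃ s ∈ eichS Q, π s ≠ 1 := by
  obtain ⟨e, -, he0, he⟩ := Cfsg.Agent.Lib.Helper49Geo.exists_singular_sub Q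
    (P := (⊤ : Submodule F (Fin n → F))) (by rw [finrank_top]; simpa using hn)
  obtain ⟨w, hwS, hw⟩ := Cfsg.Agent.Lib.Helper49Geo.exists_nonsingular_orth Q hQ
    (S := Submodule.span F {e}) (by
      rw [finrank_span_singleton he0]
      simp only [Fintype.card_fin]
      omega)
  rw [Cfsg.Agent.Lib.Helper49Geo.mem_orth_span_singleton] at hwS
  refine ⟨toSL h2 Q hQ ⟨E Q e w, E_mem_TT Q he hwS⟩, toSL_mem h2 Q hQ _, ?_⟩
  rw [Ne, mk_toSL_eq_one_iff]
  rintro ⟨c, hc⟩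
  have hee : QuadraticMap.polar ⇑Q e e = 0 := by
    rw [QuadraticMap.polar_self, he, smul_zero]
  have h1 := E_apply Q he hwS e
  rw [hc, hwS, hee] at h1
  simp only [Matrix.smul_mulVec, Matrix.one_mulVec, mul_zero, sub_zero, zero_smul, add_zero] at h1
  have hc1 : c = 1 := by
    by_contra hne
    apply he0
    have : (c - 1) • e = 0 := by rw [sub_smul, h1, one_smul, sub_self]
    exact (smul_eq_zero.mp this).resolve_left (sub_ne_zero.mpr hne)
  obtain ⟨x, hx⟩ : ∃ x, QuadraticMap.polar ⇑Q x e ≠ 0 := by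
    by_contra hcon
    push Not at hcon
    exact he0 (hQ.2 e hcon)
  have h3 := E_apply Q he hwS x
  rw [hc, hc1] at h3
  simp only [Matrix.one_mulVec, one_smul] at h3
  have h4 : QuadraticMap.polar ⇑Q x e • w
      = (QuadraticMap.polar ⇑Q x w - Q w * QuadraticMap.polar ⇑Q x e) • e := by
    have : x + (QuadraticMap.polar ⇑Q x w - Q w * QuadraticMap.polar ⇑Q x e) • e
      - QuadraticMap.polar ⇑Q x e • w = x := h3.symm
    have h5 := sub_eq_iff_eq_add.mp this
    exact (add_left_cancel h5).symm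
  apply hw
  have h6 := congrArg Q h4
  rw [QuadraticMap.map_smul, QuadraticMap.map_smul, he, smul_zero] at h6
  exact (smul_eq_zero.mp h6).resolve_left (mul_ne_zero hx hx)

end Cfsg.Agent.Lib.Helper60LBO8
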