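import Cfsg.Agent.Lib.Helper97AschC6

set_option autoImplicit false

namespace Cfsg.Agent.Lib.Helper97UC6

open Cfsg Cfsg.Geo Matrix Cfsg.Agent.Lib.Helper97AschBase Cfsg.Agent.Lib.Helper97AschHeis
  Cfsg.Agent.Lib.Helper97AschStd Cfsg.Agent.Lib.Helper97AschExtra Cfsg.Agent.Lib.Helper97AschTransv
  Cfsg.Agent.Lib.Helper97AschC6
open scoped MatrixGroups

variable {n : ℕ} {F : Type*} [Field F]

/-- class six, without reference to forms -/
lemma c6u [Fintype F] (hn : n.Prime) (hodd : n ≠ 2) {H N : Subgroup (GL (Fin n) F)}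
    (hHSL : H ≤ specialLinear (Fin n) F) (hNH : N ≤ H) (hnorm : Nz H N)
    (habs : ActsAbsolutelyIrreducibly (matrixSet N)) (hcomm : ⁅N, N⁆ ≤ scalars (Fin n) F)
    (hall : ∀ A : Subgroup (GL (Fin n) F), A ≤ N → Nz H A → (∀ a ∈ A, ∀ b ∈ A, a * b = b * a) →
      A ≤ scalars (Fin n) F) :
    (IsSymplecticTypeGroup n N ∧ Nat.card N = n ^ 3 ∧ Nat.card (Subgroup.center N) = n ∧
      ∃ p e : ℕ, p.Prime ∧ CharP F p ∧ Fintype.card F = p ^ e ∧ 0 < e ∧ n ≠ p ∧ n ∣ p ^ e - 1 ∧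
        ∀ d, 0 < d → d < e → ¬ n ∣ p ^ d - 1) ∨
    (∃ F₀ : Subfield F, F₀ ≠ ⊤ ∧ RealisableOver F₀ (matrixSet N)) := by
  have : NeZero n := ⟨hn.ne_zero⟩
  have hNSL := hNH.trans hHSL
  obtain ⟨x, hx, y, hy, ζ, h⟩ := exists_heis hn hodd hNSL habs hcomm
  obtain ⟨B, hBx, hBy⟩ := exists_std h
  have hB := fun w hw => std_all hNSL hcomm h hx hy hBx hBy (w := w) hw
  obtain ⟨p, hchar, e, hp, hcard⟩ := FiniteField.card' F
  have : Fact p.Prime := ⟨hp⟩
  have hζ0 : ζ ≠ 0 := h.prim.ne_zero hn.ne_zero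
  have hdvd : n ∣ p ^ (e : ℕ) - 1 := by
    apply h.prim.dvd_of_pow_eq_one
    rw [← hcard]
    exact FiniteField.pow_card_sub_one_eq_one ζ hζ0
  have hfix : ∀ d, n ∣ p ^ d - 1 → ζ ^ (p ^ d) = ζ := by
    intro d hd
    obtain ⟨c, hc⟩ := hd
    have h1 : p ^ d = n * c + 1 := by
      have := Nat.one_le_pow d p hp.pos
      omega
    rw [h1, pow_succ, pow_mul, h.prim.pow_eq_one, one_pow, one_mul]
  by_cases hmin : ∃ d, 0 < d ∧ d < (e : ℕ) ∧ n ∣ p ^ d - 1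
  · obtain ⟨d, hd0, hde, hd⟩ := hmin
    right
    refine ⟨RingHom.eqLocusField (iterateFrobenius F p d) (RingHom.id F), ?_, realisable_of hB _ ?_⟩
    · intro htop
      obtain ⟨a, ha⟩ := exists_not_fixed hp hcard hd0 hde
      have h1 : a ∈ RingHom.eqLocusField (iterateFrobenius F p d) (RingHom.id F) := by
        rw [htop]; trivial
      exact ha h1
    · exact hfix d hd
  · push Not at hmin
    left
    refine ⟨symplecticType hn hodd hNSL hnorm habs hcomm hall h hx hy, card_eq hNSL hcomm h hx hy,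
      card_center hn hNSL habs h hx hy, p, e, hp, hchar, hcard, e.pos, ?_, hdvd, hmin⟩
    rintro rfl
    have h1 : n ∣ n ^ (e : ℕ) := dvd_pow_self n e.pos.ne'
    have h2 := Nat.one_le_pow e n hp.pos
    have h3 : n ∣ 1 := by
      have := (Nat.dvd_sub h1 hdvd)
      rwa [Nat.sub_sub_self h2] at this
    exact hn.one_lt.ne' (Nat.dvd_one.mp h3)

end Cfsg.Agent.Lib.Helper97UC6
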