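import Cfsg.Agent.Lib.Helper97AschClifford
import Cfsg.Agent.Lib.Helper97UBase

set_option autoImplicit false

namespace Cfsg.Agent.Lib.Helper97UCliff

open Cfsg Cfsg.Geo Matrix Cfsg.Agent.Lib.Helper97AschBase Cfsg.Agent.Lib.Helper97AschSchur
  Cfsg.Agent.Lib.Helper97AschClifford Cfsg.Agent.Lib.Helper97AschForms
  Cfsg.Agent.Lib.Helper95Herm Cfsg.Agent.Lib.Helper97UBase
open scoped MatrixGroups

variable {n : ℕ} {F : Type*} [Field F]

lemma clifford' [Finite F] (hn : n.Prime) {G T : Subgroup (GL (Fin n) F)}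
    (hG : ActsIrreducibly (matrixSet G)) (hnorm : Nz G T) :
    T ≤ scalars (Fin n) F ∨ ActsIrreducibly (matrixSet T) ∨
    (∃ D : Fin n → Submodule F (Fin n → F), IsMDecomposition 1 D ∧ G ≤ decompositionStabilizer D ∧
      (∀ a ∈ T, ∀ b ∈ T, a * b = b * a) ∧ ∀ i, ∃ χ : T → F, D i = Wt T χ) := by
  classical
  obtain ⟨W, hW, hW0, hmin⟩ := exists_min_inv hn.pos T
  have hdvd := min_dvd hG hnorm hW hW0 hmin
  rcases (Nat.dvd_prime hn).mp hdvd with h1 | h1
  swap
  · right; left
    rw [actsIrreducibly_iff]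
    intro W' hW'
    by_cases h0 : W' = ⊥
    · exact Or.inl h0
    · right
      have h2 := hmin W' hW' h0
      rw [h1] at h2
      apply Submodule.eq_top_of_finrank_eq
      rw [Module.finrank_fin_fun]
      have h3 := Submodule.finrank_le W'
      rw [Module.finrank_fin_fun] at h3
      exact le_antisymm h3 h2
  -- the one-dimensional case
  obtain ⟨⟨w, hwW⟩, hw0, hspan⟩ := finrank_eq_one_iff'.mp h1
  have hw0' : w ≠ 0 := fun h => hw0 (Subtype.ext h)
  have hspan' : ∀ u ∈ W, ∃ c : F, c • w = u := by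
    intro u hu
    obtain ⟨c, hc⟩ := hspan ⟨u, hu⟩
    exact ⟨c, congrArg Subtype.val hc⟩
  have hχ : ∀ t : T, ∃ c : F, c • w = ((t : GL (Fin n) F) : Matrix (Fin n) (Fin n) F) *ᵥ w :=
    fun t => hspan' _ (hW t t.2 w hwW)
  choose χ₀ hχ₀ using hχ
  have hWle : W ≤ Wt T χ₀ := by
    intro u hu t
    obtain ⟨c, rfl⟩ := hspan' u hu
    rw [Matrix.mulVec_smul, ← hχ₀ t, smul_comm]
  have htrans : ∀ g (hg : g ∈ G), ∀ u ∈ W,
      (g : Matrix (Fin n) (Fin n) F) *ᵥ u ∈ Wt T (conjChar hnorm ⟨g, hg⟩ χ₀) := by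
    intro g hg u hu
    rw [← gmap_Wt hnorm ⟨g, hg⟩ χ₀]
    exact mulVec_mem_gmap (hWle hu)
  -- T is commutative
  have hcomm : ∀ a ∈ T, ∀ b ∈ T, a * b = b * a := by
    intro a ha b hb
    let U : Submodule F (Fin n → F) :=
      LinearMap.eqLocus (Matrix.toLin' ((a * b : GL (Fin n) F) : Matrix (Fin n) (Fin n) F))
        (Matrix.toLin' ((b * a : GL (Fin n) F) : Matrix (Fin n) (Fin n) F))
    have hU : U = ⊤ := by
      by_contra hUt
      obtain ⟨g, hg, u, hu, hgu⟩ := exists_translate_not_le hG hW0 hUt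
      apply hgu
      have h2 := htrans g hg u hu
      have ha' := h2 ⟨a, ha⟩
      have hb' := h2 ⟨b, hb⟩
      simp only at ha' hb'
      show Matrix.toLin' _ _ = Matrix.toLin' _ _
      rw [Matrix.toLin'_apply, Matrix.toLin'_apply, Units.val_mul, Units.val_mul,
        ← Matrix.mulVec_mulVec, ← Matrix.mulVec_mulVec, ha', hb', Matrix.mulVec_smul,
        Matrix.mulVec_smul, ha', hb', smul_comm]
    apply Units.ext
    apply matrix_eq_of_mulVec_eq
    intro v
    have hv : v ∈ U := by rw [hU]; exact Submodule.mem_top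
    simpa [U, Matrix.toLin'_apply] using hv
  -- the orbit of characters
  let X : Set (T → F) := Set.range (fun g : G => conjChar hnorm g χ₀)
  have : Fintype X := Fintype.ofFinite X
  let A : X → Submodule F (Fin n → F) := fun χ => Wt T χ.1
  have hAind : iSupIndep A := (indep_Wt hcomm).comp Subtype.val_injective
  have hAtop : iSup A = ⊤ := by
    by_contra hUt
    obtain ⟨g, hg, u, hu, hgu⟩ := exists_translate_not_le hG hW0 hUt
    apply hgu
    exact (le_iSup A ⟨_, ⟨g, hg⟩, rfl⟩) (htrans g hg u hu)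
  have hAfr : ∀ χ : X, Module.finrank F (A χ) = Module.finrank F (Wt T χ₀) := by
    rintro ⟨_, g, rfl⟩
    show Module.finrank F (Wt T (conjChar hnorm g χ₀)) = _
    rw [← gmap_Wt, finrank_gmap]
  have hsum := finrank_eq_sum_of_indep A hAind hAtop
  simp only [hAfr, Finset.sum_const, Finset.card_univ, smul_eq_mul, Module.finrank_fin_fun] at hsum
  have hXdvd : Fintype.card X ∣ n := ⟨_, hsum⟩
  rcases (Nat.dvd_prime hn).mp hXdvd with hX | hX
  · -- T is scalar
    left
    rw [hX, one_mul] at hsum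
    have htop : Wt T χ₀ = ⊤ := by
      apply Submodule.eq_top_of_finrank_eq
      rw [Module.finrank_fin_fun, ← hsum]
    intro t ht
    rw [mem_scalars_iff]
    have hc0 : χ₀ ⟨t, ht⟩ ≠ 0 := by
      intro h0
      have h2 := hχ₀ ⟨t, ht⟩
      rw [h0, zero_smul] at h2
      apply hw0'
      apply mulVec_injective t
      simp only [Matrix.mulVec_zero]
      exact h2.symm
    refine ⟨Units.mk0 _ hc0, ?_⟩
    apply matrix_eq_of_mulVec_eq
    intro v
    have hv : v ∈ Wt T χ₀ := by rw [htop]; exact Submodule.mem_top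
    rw [Units.val_mk0, Matrix.smul_mulVec, Matrix.one_mulVec]
    exact hv ⟨t, ht⟩
  · right; right
    have hm : Module.finrank F (Wt T χ₀) = 1 := by
      rw [hX] at hsum
      have hpos := hn.pos
      nlinarith [Nat.eq_of_mul_eq_mul_left hpos (by rw [mul_one]; exact hsum :
        n * 1 = n * Module.finrank F (Wt T χ₀))]
    let e : Fin n ≃ X := (Fintype.equivFinOfCardEq hX).symm
    let D : Fin n → Submodule F (Fin n → F) := fun i => A (e i)
    have hDind : iSupIndep D := hAind.comp e.injective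
    have hDfr : ∀ i, Module.finrank F (D i) = 1 := fun i => (hAfr (e i)).trans hm
    have hDne : ∀ i, D i ≠ ⊥ := by
      intro i h0
      have := hDfr i
      rw [h0, finrank_bot] at this
      omega
    have hDinj : Function.Injective D := hDind.injective hDne
    refine ⟨D, ⟨hn.two_le, one_pos, hDfr, hDind, ?_⟩, ?_, hcomm, fun i => ⟨(e i).1, rfl⟩⟩
    · rw [← hAtop]
      exact e.surjective.iSup_comp A
    · intro g hg
      have hex : ∀ i, ∃ j, gmap g (D i) = D j := by
        intro i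
        obtain ⟨g₀, hg₀⟩ := (e i).2
        refine ⟨e.symm ⟨conjChar hnorm (⟨g, hg⟩ * g₀) χ₀, ⟨_, rfl⟩⟩, ?_⟩
        show gmap g (Wt T (e i).1) = Wt T (e (e.symm _)).1
        rw [Equiv.apply_symm_apply, ← hg₀, ← gmap_Wt, ← gmap_Wt, ← gmap_mul]
        rfl
      choose σ hσ using hex
      have hσinj : Function.Injective σ := by
        intro i j hij
        apply hDinj
        apply gmap_injective g
        rw [hσ, hσ, hij]
      exact ⟨Equiv.ofBijective σ (Finite.injective_iff_bijective.mp hσinj), fun i => hσ i⟩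


variable {σ : F ≃+* F} {f : (Fin n → F) → (Fin n → F) → F}

/-- two weight vectors which are not orthogonal have dual characters -/
lemma char_dual (hf : IsUnitaryForm σ f) {T : Subgroup (GL (Fin n) F)} (hT : T ≤ Iso f)
    {χ ψ : T → F} {u v : Fin n → F} (hu : u ∈ Wt T χ) (hv : v ∈ Wt T ψ) (huv : f u v ≠ 0) (t : T) :
    χ t * σ (ψ t) = 1 := by
  have h := sesq_of_unitary hf
  have h1 := hT t.2 u v
  have h2 : f (((t : GL (Fin n) F) : Matrix (Fin n) (Fin n) F) *ᵥ u)
      (((t : GL (Fin n) F) : Matrix (Fin n) (Fin n) F) *ᵥ v) = f u v := h1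
  rw [hu t, hv t, h.smul_left, h.smul_right, ← mul_assoc] at h2
  exact mul_right_cancel₀ huv (by rw [h2, one_mul])

lemma orth_decomp (hf : IsUnitaryForm σ f) (hodd : Odd n) {H T : Subgroup (GL (Fin n) F)}
    (hH : H ≤ Iso f) (hirr : ActsIrreducibly (matrixSet H)) (hT : T ≤ Iso f)
    {D : Fin n → Submodule F (Fin n → F)} (hD : IsMDecomposition 1 D)
    (hle : H ≤ decompositionStabilizer D) (hχ : ∀ i, ∃ χ : T → F, D i = Wt T χ) :
    IsNondegenerateMDecomposition f 1 D := by
  classical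
  have h := herm_of_unitary hf
  have hs := sesq_of_unitary hf
  choose χ hχ using hχ
  have hne : ∀ i, D i ≠ ⊥ := by
    intro i hb
    have := hD.finrank_eq i
    rw [hb, finrank_bot] at this
    omega
  have hinj : Function.Injective D := hD.indep.injective hne
  -- uniqueness of the partner
  have huniq : ∀ i j k, (∃ u ∈ D i, ∃ v ∈ D j, f u v ≠ 0) → (∃ u ∈ D i, ∃ v ∈ D k, f u v ≠ 0) →
      j = k := by
    rintro i j k ⟨u, hu, v, hv, huv⟩ ⟨u', hu', v', hv', huv'⟩
    apply hinj
    rw [hχ j, hχ k]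
    congr 1
    funext t
    rw [hχ i] at hu hu'
    rw [hχ j] at hv
    rw [hχ k] at hv'
    have e1 := char_dual hf hT hu hv huv t
    have e2 := char_dual hf hT hu' hv' huv' t
    have h0 : χ i t ≠ 0 := by
      intro h0
      rw [h0, zero_mul] at e1
      exact zero_ne_one e1
    apply σ.injective
    exact mul_left_cancel₀ h0 (e1.trans e2.symm)
  -- existence of the partner
  have hex : ∀ i, ∃ j, ∃ u ∈ D i, ∃ v ∈ D j, f u v ≠ 0 := by
    intro i
    obtain ⟨u, hu, hu0⟩ := Submodule.exists_mem_ne_zero_of_ne_bot (hne i)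
    by_contra hcon
    push Not at hcon
    obtain ⟨x, hx⟩ := (hf.nondegenerate u hu0).2
    apply hx
    have key : ∀ x ∈ iSup D, f u x = 0 := by
      intro x hx'
      induction hx' using Submodule.iSup_induction' with
      | mem j v hv => exact hcon j u hu v hv
      | zero => exact h.zero_right u
      | add a b _ _ ha hb => rw [h.add_right, ha, hb, add_zero]
    apply key
    rw [hD.iSup_eq_top]
    trivial
  choose s hsp using hex
  have hinv : Function.Involutive s := by
    intro i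
    obtain ⟨u, hu, v, hv, huv⟩ := hsp i
    exact huniq (s i) _ _ (hsp (s i)) ⟨v, hv, u, hu, h.swap_ne huv⟩
  -- a fixed point
  obtain ⟨i₀, hi₀⟩ : ∃ i, s i = i := by
    have : Fact (Nat.Prime 2) := ⟨Nat.prime_two⟩
    have h2 : ¬ 2 ∣ Fintype.card (Fin n) := by
      rw [Fintype.card_fin]
      exact hodd.not_two_dvd_nat
    have h3 : (hinv.toPerm s) ^ 2 ^ 1 = 1 := by
      ext i
      simp [pow_two, hinv i]
    exact Equiv.Perm.exists_fixed_point_of_prime h2 h3
  -- the good indices
  let I : Set (Fin n) := {i | s i = i}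
  let U : Submodule F (Fin n → F) := ⨆ i ∈ I, D i
  have hUinv : Inv H U := by
    intro g hg x hx
    obtain ⟨π, hπ⟩ := hle hg
    have h1 : U.map (Matrix.toLin' (g : Matrix (Fin n) (Fin n) F)) ≤ U := by
      simp only [U, Submodule.map_iSup]
      apply iSup₂_le
      intro i hi
      rw [hπ i]
      refine le_iSup₂_of_le (f := fun i (_ : i ∈ I) => D i) (π i) ?_ le_rfl
      obtain ⟨u, hu, v, hv, huv⟩ := hsp i
      rw [show s i = i from hi] at hv
      have hgu : (g : Matrix (Fin n) (Fin n) F) *ᵥ u ∈ D (π i) := by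
        rw [← hπ i]
        exact ⟨u, hu, by simp [Matrix.toLin'_apply]⟩
      have hgv : (g : Matrix (Fin n) (Fin n) F) *ᵥ v ∈ D (π i) := by
        rw [← hπ i]
        exact ⟨v, hv, by simp [Matrix.toLin'_apply]⟩
      have e : f ((g : Matrix (Fin n) (Fin n) F) *ᵥ u) ((g : Matrix (Fin n) (Fin n) F) *ᵥ v) = f u v :=
        hH hg u v
      exact huniq (π i) _ _ (hsp (π i)) ⟨_, hgu, _, hgv, by rw [e]; exact huv⟩
    have h2 := h1 (Submodule.mem_map_of_mem hx)
    simpa [Matrix.toLin'_apply] using h2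
  have hU0 : U ≠ ⊥ := by
    intro hb
    apply hne i₀
    rw [eq_bot_iff, ← hb]
    exact le_iSup₂_of_le i₀ hi₀ le_rfl
  have hUtop : U = ⊤ := ((actsIrreducibly_iff.mp hirr) U hUinv).resolve_left hU0
  have hall : ∀ i, s i = i := by
    intro j
    by_contra hj
    apply hne j
    have h1 : U ≤ ⨆ i, ⨆ (_ : i ≠ j), D i := by
      apply iSup₂_le
      intro i hi
      refine le_iSup₂_of_le (f := fun i (_ : i ≠ j) => D i) i ?_ le_rfl
      rintro rfl
      exact hj hi
    apply (hD.indep j).eq_bot_of_le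
    rw [hUtop] at h1
    exact le_top.trans h1
  refine ⟨hD, ?_, ?_⟩
  · intro i w hw hw0
    obtain ⟨u, hu, v, hv, huv⟩ := hsp i
    rw [hall i] at hv
    -- everything in `D i` is a multiple of `w`
    have hfr := hD.finrank_eq i
    have hspan := (finrank_eq_one_iff_of_nonzero' (⟨w, hw⟩ : D i) (by
      intro h0; exact hw0 (congrArg Subtype.val h0))).mp hfr
    obtain ⟨a, ha⟩ := hspan ⟨u, hu⟩
    obtain ⟨b, hb⟩ := hspan ⟨v, hv⟩
    have ha' : a • w = u := congrArg Subtype.val ha
    have hb' : b • w = v := congrArg Subtype.val hb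
    have hww : f w w ≠ 0 := by
      intro h0
      apply huv
      rw [← ha', ← hb', hs.smul_left, hs.smul_right, h0, mul_zero, mul_zero]
    exact ⟨⟨w, hw, hww⟩, ⟨w, hw, hww⟩⟩
  · intro i j hij u hu v hv
    by_contra huv
    apply hij
    have h1 := huniq i _ _ (hsp i) ⟨u, hu, v, hv, huv⟩
    rw [← h1, hall i]

/-- the centraliser algebra of a group of isometries is closed under adjoints -/
lemma adjointClosed (hf : IsUnitaryForm σ f) {T : Subgroup (GL (Fin n) F)} (hT : T ≤ Iso f) :
    IsAdjointClosedFor f (Subalgebra.centralizer F (matrixSet T)) := by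
  have hs := sesq_of_unitary hf
  have h := herm_of_unitary hf
  intro k hk
  -- the form `(u, v) ↦ f (v', k u')` suitably twisted
  have hs' : Sesq σ (fun u v => σ (f (k *ᵥ v) u)) :=
    { add_left := fun x y v => by simp only [hs.add_right, map_add]
      smul_left := fun c x v => by simp only [hs.smul_right, map_mul, hf.involutive]
      add_right := fun v x y => by simp only [Matrix.mulVec_add, hs.add_left, map_add]
      smul_right := fun c v x => by simp only [Matrix.mulVec_smul, hs.smul_left, map_mul] }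
  obtain ⟨A, hA⟩ := hs.exists_adjoint hs' (fun v hv => (hf.nondegenerate v hv).1)
  have hAdj : ∀ u v, f (k *ᵥ u) v = f u (A *ᵥ v) := by
    intro u v
    have e := hA v u
    rw [hf.herm u (A *ᵥ v), ← e, hf.involutive]
  refine ⟨A, ?_, hAdj⟩
  rw [Subalgebra.mem_centralizer_iff]
  rintro _ ⟨t, ht, rfl⟩
  rw [Subalgebra.mem_centralizer_iff] at hk
  show (t : Matrix (Fin n) (Fin n) F) * A = A * (t : Matrix (Fin n) (Fin n) F)
  apply matrix_eq_of_mulVec_eq
  intro v
  rw [← Matrix.mulVec_mulVec, ← Matrix.mulVec_mulVec]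
  by_contra hne
  obtain ⟨x, hx⟩ := (hf.nondegenerate _ (sub_ne_zero.mpr hne)).1
  apply hx
  have hsub : ∀ a b c, f a (b - c) = f a b - f a c := by
    intro a b c
    have e := hs.add_right a (b - c) c
    rw [sub_add_cancel] at e
    rw [e, add_sub_cancel_right]
  rw [hsub, sub_eq_zero, ← hAdj]
  -- move `t` across
  have e1 : x = (t : Matrix (Fin n) (Fin n) F) *ᵥ (((t⁻¹ : GL (Fin n) F) : Matrix (Fin n) (Fin n) F) *ᵥ x) := by
    simp
  have e2 : ∀ a b, f ((t : Matrix (Fin n) (Fin n) F) *ᵥ a) ((t : Matrix (Fin n) (Fin n) F) *ᵥ b) = f a b :=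
    fun a b => hT ht a b
  have e3 : k *ᵥ ((t : Matrix (Fin n) (Fin n) F) *ᵥ (((t⁻¹ : GL (Fin n) F) : Matrix (Fin n) (Fin n) F) *ᵥ x)) =
      (t : Matrix (Fin n) (Fin n) F) *ᵥ (k *ᵥ (((t⁻¹ : GL (Fin n) F) : Matrix (Fin n) (Fin n) F) *ᵥ x)) := by
    have e4 : (t : Matrix (Fin n) (Fin n) F) * k = k * (t : Matrix (Fin n) (Fin n) F) := hk _ ⟨t, ht, rfl⟩
    rw [Matrix.mulVec_mulVec _ k, ← e4, ← Matrix.mulVec_mulVec]
  conv_lhs => rw [e1, e2, ← hAdj]
  conv_rhs => rw [e1, e3, e2]

end Cfsg.Agent.Lib.Helper97UCliff
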