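import Cfsg.Agent.Lib.Helper97UBase

set_option autoImplicit false

namespace Cfsg.Agent.Lib.Helper97UProper

open Cfsg Cfsg.Geo Matrix Cfsg.Agent.Lib.Helper97AschBase Cfsg.Agent.Lib.Helper97AschForms
  Cfsg.Agent.Lib.Helper97AschTransv Cfsg.Agent.Lib.Helper95Herm Cfsg.Agent.Lib.Helper97UBase
open scoped MatrixGroups

variable {n : ℕ} {F : Type*} [Field F] {σ : F ≃+* F} {f : (Fin n → F) → (Fin n → F) → F}

lemma exists_partner (hf : IsUnitaryForm σ f) {w : Fin n → F} (hw0 : w ≠ 0) (hw : f w w = 0) :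
    ∃ u, f u u = 0 ∧ f w u ≠ 0 := by
  have h := herm_of_unitary hf
  obtain ⟨x, hx⟩ := (hf.nondegenerate w hw0).2
  obtain ⟨c', hc'⟩ := h.trace_surj (- f x x) (by rw [map_neg, h.self_fix])
  refine ⟨x + (c' / f w x) • w, ?_, ?_⟩
  · rw [h.add_left, h.add_right, h.add_right, h.smul_left, h.smul_left, h.smul_right, h.smul_right, hw]
    have e1 : (σ : F →+* F) (c' / f w x) * f x w = (σ : F →+* F) c' := by
      rw [h.herm x w, ← map_mul, div_mul_cancel₀ _ hx]
    have e2 : c' / f w x * f w x = c' := div_mul_cancel₀ _ hx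
    rw [e1, e2]
    linear_combination hc'
  · rw [h.add_right, h.smul_right, hw, mul_zero, add_zero]
    exact hx

lemma mem_of_utv (hf : IsUnitaryForm σ f) {W : Submodule F (Fin n → F)}
    (hle : Iso f ⊓ specialLinear (Fin n) F ≤ subspaceStabilizer W) {w u : Fin n → F} (hw : w ∈ W)
    (hu : f u u = 0) (hwu : f w u ≠ 0) : u ∈ W := by
  have h := herm_of_unitary hf
  obtain ⟨a, ha0, ha⟩ := h.exists_z
  have h1 := (mem_subspaceStabilizer_iff.mp (hle (utv_mem hf u a hu ha)) w).mp hw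
  rw [utv_mulVec] at h1
  have h2 := (W.add_mem_iff_right hw).mp h1
  exact (W.smul_mem_iff (mul_ne_zero ha0 hwu)).mp h2

lemma not_le_stab_singular (hf : IsUnitaryForm σ f) {W : Submodule F (Fin n → F)} (h0 : W ≠ ⊥)
    (hW : IsTotallySingularFor f W) :
    ¬ Iso f ⊓ specialLinear (Fin n) F ≤ subspaceStabilizer W := by
  intro hle
  obtain ⟨w, hw, hw0⟩ := Submodule.exists_mem_ne_zero_of_ne_bot h0
  obtain ⟨u, hu, hwu⟩ := exists_partner hf hw0 (hW w hw w hw)
  exact hwu (hW w hw u (mem_of_utv hf hle hw hu hwu))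

lemma exists_nonsingular (hf : IsUnitaryForm σ f) {W : Submodule F (Fin n → F)} (h0 : W ≠ ⊥)
    (hW : IsNondegenerateOn f W) : ∃ w ∈ W, f w w ≠ 0 := by
  have h := herm_of_unitary hf
  by_contra hcon
  push Not at hcon
  obtain ⟨w, hw, hw0⟩ := Submodule.exists_mem_ne_zero_of_ne_bot h0
  obtain ⟨x, hx, hxw⟩ := (hW w hw hw0).1
  exact hxw (h.polar W hcon x hx w hw)

lemma not_le_stab_nondeg [Finite F] (hf : IsUnitaryForm σ f) {W : Submodule F (Fin n → F)} (h0 : W ≠ ⊥)
    (h1 : W ≠ ⊤) (hW : IsNondegenerateOn f W) :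
    ¬ Iso f ⊓ specialLinear (Fin n) F ≤ subspaceStabilizer W := by
  intro hle
  have h := herm_of_unitary hf
  have hU := inf_perp_eq_bot_of_nondegOn h hW
  have htop := sup_perp_eq_top h hU
  have hp0 : h.perp (W : Set (Fin n → F)) ≠ ⊥ := by
    intro hb
    rw [hb, sup_bot_eq] at htop
    exact h1 htop
  obtain ⟨w, hw, hww⟩ := exists_nonsingular hf h0 hW
  obtain ⟨y, hy, hyy⟩ := exists_nonsingular hf hp0 (nondegOn_of_inf_eq_bot h (perp_inf_perp_perp h hU))
  obtain ⟨c, hc⟩ := h.norm_surj (- f w w / f y y) (by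
    rw [map_div₀, map_neg, h.self_fix, h.self_fix])
  have hyw : f y w = 0 := hy w hw
  have hwy : f w y = 0 := h.swap_zero hyw
  have hu : f (w + c • y) (w + c • y) = 0 := by
    rw [h.add_left, h.add_right, h.add_right, h.smul_left, h.smul_left, h.smul_right, h.smul_right,
      hyw, hwy]
    have : c * ((σ : F →+* F) c * f y y) = - f w w := by
      rw [← mul_assoc, hc, div_mul_cancel₀ _ hyy]
    rw [this]
    ring
  have hwu : f w (w + c • y) ≠ 0 := by
    rw [h.add_right, h.smul_right, hwy, mul_zero, add_zero]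
    exact hww
  have hmem := mem_of_utv hf hle hw hu hwu
  have hcy := (W.add_mem_iff_right hw).mp hmem
  have hc0 : c ≠ 0 := by
    rintro rfl
    rw [zero_mul] at hc
    have : - f w w = 0 := by
      have := hc.symm
      rwa [div_eq_zero_iff, or_iff_left hyy] at this
    exact hww (neg_eq_zero.mp this)
  have hyW : y ∈ W := (W.smul_mem_iff hc0).mp hcy
  have : y ∈ W ⊓ h.perp (W : Set (Fin n → F)) := ⟨hyW, hy⟩
  rw [hU] at this
  have hy0 : y = 0 := this
  rw [hy0, h.zero_left] at hyy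
  exact hyy rfl

lemma not_le_decomp [Finite F] (hf : IsUnitaryForm σ f) (hn : 4 ≤ n)
    (D : Fin n → Submodule F (Fin n → F)) (hD : IsNondegenerateMDecomposition f 1 D) :
    ¬ Iso f ⊓ specialLinear (Fin n) F ≤ decompositionStabilizer D := by
  intro hle
  have h := herm_of_unitary hf
  have hne : ∀ i, D i ≠ ⊥ := by
    intro i hb
    have := hD.decomp.finrank_eq i
    rw [hb, finrank_bot] at this
    omega
  have hex : ∀ i, ∃ d ∈ D i, f d d ≠ 0 := fun i => exists_nonsingular hf (hne i) (hD.nondegenerate i)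
  choose d hdD hdd using hex
  have horth : ∀ i j, i ≠ j → f (d i) (d j) = 0 := fun i j hij =>
    hD.orthogonal i j hij _ (hdD i) _ (hdD j)
  let i0 : Fin n := ⟨0, by omega⟩
  let i1 : Fin n := ⟨1, by omega⟩
  let i2 : Fin n := ⟨2, by omega⟩
  let i3 : Fin n := ⟨3, by omega⟩
  have ne : ∀ {a b : ℕ} (ha : a < n) (hb : b < n), a ≠ b → (⟨a, ha⟩ : Fin n) ≠ ⟨b, hb⟩ := by
    intro a b ha hb hab hcon
    exact hab (congrArg Fin.val hcon)
  have h01 : i0 ≠ i1 := ne _ _ (by norm_num)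
  have h02 : i0 ≠ i2 := ne _ _ (by norm_num)
  have h03 : i0 ≠ i3 := ne _ _ (by norm_num)
  have h12 : i1 ≠ i2 := ne _ _ (by norm_num)
  have h13 : i1 ≠ i3 := ne _ _ (by norm_num)
  have h23 : i2 ≠ i3 := ne _ _ (by norm_num)
  obtain ⟨β, hβ⟩ := h.norm_surj (- f (d i0) (d i0) / f (d i1) (d i1)) (by
    rw [map_div₀, map_neg, h.self_fix, h.self_fix])
  obtain ⟨δ, hδ⟩ := h.norm_surj (- f (d i2) (d i2) / f (d i3) (d i3)) (by
    rw [map_div₀, map_neg, h.self_fix, h.self_fix])
  have hδ0 : δ ≠ 0 := by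
    rintro rfl
    rw [zero_mul] at hδ
    have := hδ.symm
    rw [div_eq_zero_iff, or_iff_left (hdd i3), neg_eq_zero] at this
    exact hdd i2 this
  obtain ⟨u, hu⟩ : ∃ u, u = d i0 + β • d i1 + d i2 + δ • d i3 := ⟨_, rfl⟩
  have hu0 : f u (d i0) = f (d i0) (d i0) := by
    rw [hu, h.add_left, h.add_left, h.add_left, h.smul_left, h.smul_left, horth i1 i0 h01.symm,
      horth i2 i0 h02.symm, horth i3 i0 h03.symm]
    ring
  have hu1 : f u (d i1) = β * f (d i1) (d i1) := by
    rw [hu, h.add_left, h.add_left, h.add_left, h.smul_left, h.smul_left, horth i0 i1 h01,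
      horth i2 i1 h12.symm, horth i3 i1 h13.symm]
    ring
  have hu2 : f u (d i2) = f (d i2) (d i2) := by
    rw [hu, h.add_left, h.add_left, h.add_left, h.smul_left, h.smul_left, horth i0 i2 h02,
      horth i1 i2 h12, horth i3 i2 h23.symm]
    ring
  have hu3 : f u (d i3) = δ * f (d i3) (d i3) := by
    rw [hu, h.add_left, h.add_left, h.add_left, h.smul_left, h.smul_left, horth i0 i3 h03,
      horth i1 i3 h13, horth i2 i3 h23]
    ring
  have huu : f u u = 0 := by
    conv_lhs => rw [hu]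
    rw [← hu]
    conv_lhs => arg 2; rw [hu]
    rw [h.add_right, h.add_right, h.add_right, h.smul_right, h.smul_right, hu0, hu1, hu2, hu3]
    have e1 : (σ : F →+* F) β * (β * f (d i1) (d i1)) = - f (d i0) (d i0) := by
      rw [← mul_assoc, mul_comm ((σ : F →+* F) β), hβ, div_mul_cancel₀ _ (hdd i1)]
    have e2 : (σ : F →+* F) δ * (δ * f (d i3) (d i3)) = - f (d i2) (d i2) := by
      rw [← mul_assoc, mul_comm ((σ : F →+* F) δ), hδ, div_mul_cancel₀ _ (hdd i3)]
    rw [e1, e2]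
    ring
  obtain ⟨a, ha0, ha⟩ := h.exists_z
  obtain ⟨π, hπ⟩ := hle (utv_mem hf u a huu ha)
  have hv : d i0 + (a * f (d i0) u) • u ∈ D (π i0) := by
    rw [← hπ i0]
    refine ⟨d i0, hdD i0, ?_⟩
    rw [Matrix.toLin'_apply, utv_mulVec]
  have hκ : a * f (d i0) u ≠ 0 := by
    apply mul_ne_zero ha0
    apply h.swap_ne
    rw [hu0]
    exact hdd i0
  have hj2 : π i0 = i2 := by
    by_contra hne2
    have h5 := hD.orthogonal _ _ hne2 _ hv _ (hdD i2)
    rw [h.add_left, h.smul_left, horth i0 i2 h02, hu2, zero_add] at h5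
    exact (mul_ne_zero hκ (hdd i2)) h5
  have hj3 : π i0 = i3 := by
    by_contra hne3
    have h5 := hD.orthogonal _ _ hne3 _ hv _ (hdD i3)
    rw [h.add_left, h.smul_left, horth i0 i3 h03, hu3, zero_add] at h5
    exact (mul_ne_zero hκ (mul_ne_zero hδ0 (hdd i3))) h5
  exact h23 (hj2.symm.trans hj3)

end Cfsg.Agent.Lib.Helper97UProper
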