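import Cfsg.Agent.Lib.Helper97UProper
import Cfsg.Agent.Lib.Helper97AschStd

set_option autoImplicit false

namespace Cfsg.Agent.Lib.Helper97UProper2

open Cfsg Cfsg.Geo Matrix Cfsg.Agent.Lib.Helper97AschBase Cfsg.Agent.Lib.Helper97AschForms
  Cfsg.Agent.Lib.Helper97AschTransv Cfsg.Agent.Lib.Helper95Herm Cfsg.Agent.Lib.Helper97UBase
  Cfsg.Agent.Lib.Helper97UProper Cfsg.Agent.Lib.Helper97AschHeis Cfsg.Agent.Lib.Helper97AschStd
open scoped MatrixGroups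

variable {n : ℕ} {F : Type*} [Field F]

/-- the functional `v ↦ φ ⬝ᵥ v` -/
def dotL (φ : Fin n → F) : (Fin n → F) →ₗ[F] F where
  toFun v := φ ⬝ᵥ v
  map_add' := dotProduct_add φ
  map_smul' c v := by simp [dotProduct_smul]

@[simp] lemma dotL_apply (φ v : Fin n → F) : dotL φ v = φ ⬝ᵥ v := rfl

lemma exists_dot_eq_one {φ : Fin n → F} (hφ : φ ≠ 0) : ∃ v, φ ⬝ᵥ v = 1 := by
  obtain ⟨i, hi⟩ := Function.ne_iff.mp hφ
  rw [Pi.zero_apply] at hi
  refine ⟨Pi.single i (φ i)⁻¹, ?_⟩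
  rw [dotProduct_single, mul_inv_cancel₀ hi]

/-- common kernel of two functionals -/
lemma finrank_ker_two (L₁ L₂ : (Fin n → F) →ₗ[F] F) :
    n ≤ Module.finrank F (LinearMap.ker (L₁.prod L₂)) + 2 := by
  have h1 := LinearMap.finrank_range_add_finrank_ker (L₁.prod L₂)
  have h2 := Submodule.finrank_le (LinearMap.range (L₁.prod L₂))
  rw [Module.finrank_prod, Module.finrank_self] at h2
  rw [Module.finrank_fin_fun] at h1
  omega

lemma exists_ker_two (hn : 3 ≤ n) (L₁ L₂ : (Fin n → F) →ₗ[F] F) :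
    ∃ v, v ≠ 0 ∧ L₁ v = 0 ∧ L₂ v = 0 := by
  have h1 := finrank_ker_two L₁ L₂
  have h2 : LinearMap.ker (L₁.prod L₂) ≠ ⊥ := by
    intro hb
    rw [hb, finrank_bot] at h1
    omega
  obtain ⟨v, hv, hv0⟩ := Submodule.exists_mem_ne_zero_of_ne_bot h2
  rw [LinearMap.mem_ker] at hv
  exact ⟨v, hv0, congrArg Prod.fst hv, congrArg Prod.snd hv⟩

lemma tv_not_mem_subalgebraNormalizer (hn : 3 ≤ n) (K : Subalgebra F (Matrix (Fin n) (Fin n) F))
    (hK : IsFieldSubalgebra n K) (u φ : Fin n → F) (hφu : φ ⬝ᵥ u = 0) (hu0 : u ≠ 0) (hφ0 : φ ≠ 0) :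
    tv u φ hφu ∉ subalgebraNormalizer K := by
  intro ht
  have hzero : ∀ k ∈ K, ∀ v : Fin n → F, v ≠ 0 → k *ᵥ v = 0 → k = 0 := by
    intro k hk v hv hkv
    by_contra hk0
    obtain ⟨k', hk', hkk'⟩ := hK.inv k hk hk0
    rw [hK.comm k hk k' hk'] at hkk'
    apply hv
    have := congrArg (fun M => M *ᵥ v) hkk'
    simp only [← Matrix.mulVec_mulVec, hkv, Matrix.mulVec_zero, Matrix.one_mulVec] at this
    exact this.symm
  have hcomm : ∀ k ∈ K, ∀ v, (tv u φ hφu : Matrix (Fin n) (Fin n) F) *ᵥ (k *ᵥ v) =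
      k *ᵥ ((tv u φ hφu : Matrix (Fin n) (Fin n) F) *ᵥ v) := by
    intro k hk
    have hk2 := (ht k).mp hk
    obtain ⟨v, hv0, hv1, hv2⟩ := exists_ker_two hn (dotL φ) ((dotL φ) ∘ₗ Matrix.toLin' k)
    simp only [dotL_apply, LinearMap.comp_apply, Matrix.toLin'_apply] at hv1 hv2
    have htv : (tv u φ hφu : Matrix (Fin n) (Fin n) F) *ᵥ v = v := by
      rw [tv_mulVec, hv1, zero_smul, add_zero]
    have htv' : (((tv u φ hφu)⁻¹ : GL (Fin n) F) : Matrix (Fin n) (Fin n) F) *ᵥ v = v := by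
      conv_lhs => rw [← htv]
      simp
    have h3 : ((tv u φ hφu : Matrix (Fin n) (Fin n) F) * k *
        (((tv u φ hφu)⁻¹ : GL (Fin n) F) : Matrix (Fin n) (Fin n) F) - k) *ᵥ v = 0 := by
      rw [Matrix.sub_mulVec, ← Matrix.mulVec_mulVec, htv', ← Matrix.mulVec_mulVec, tv_mulVec, hv2,
        zero_smul, add_zero, sub_self]
    have h4 := sub_eq_zero.mp (hzero _ (K.sub_mem hk2 hk) v hv0 h3)
    intro w
    conv_rhs => rw [← h4]
    rw [← Matrix.mulVec_mulVec, ← Matrix.mulVec_mulVec, inv_mulVec_mulVec]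
  obtain ⟨v₁, hv₁⟩ := exists_dot_eq_one hφ0
  have hsc : ∀ k ∈ K, k ∈ (⊥ : Subalgebra F (Matrix (Fin n) (Fin n) F)) := by
    intro k hk
    have h1 := hcomm k hk v₁
    rw [tv_mulVec, tv_mulVec, Matrix.mulVec_add, Matrix.mulVec_smul, hv₁, one_smul] at h1
    have h3 : k *ᵥ u = (φ ⬝ᵥ k *ᵥ v₁) • u := (add_left_cancel h1).symm
    have h4 : (k - algebraMap F _ (φ ⬝ᵥ k *ᵥ v₁)) *ᵥ u = 0 := by
      rw [Matrix.sub_mulVec, h3, Algebra.algebraMap_eq_smul_one, Matrix.smul_mulVec, Matrix.one_mulVec,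
        sub_self]
    have h5 := sub_eq_zero.mp (hzero _ (K.sub_mem hk (K.algebraMap_mem _)) u hu0 h4)
    rw [h5]
    exact Subalgebra.algebraMap_mem _ _
  have hbot : K = ⊥ := eq_bot_iff.mpr hsc
  have hfr := hK.finrank_eq
  have : Nonempty (Fin n) := ⟨⟨0, by omega⟩⟩
  rw [hbot, Subalgebra.finrank_bot] at hfr
  omega

variable {σ : F ≃+* F} {f : (Fin n → F) → (Fin n → F) → F}

lemma uφ_ne_zero (hf : IsUnitaryForm σ f) {u : Fin n → F} (hu : u ≠ 0) {a : F} (ha : a ≠ 0) :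
    uφ f u a ≠ 0 := by
  intro h0
  obtain ⟨x, hx⟩ := (hf.nondegenerate u hu).1
  have := uφ_dot hf u a x
  rw [h0, zero_dotProduct] at this
  exact (mul_ne_zero ha hx) this.symm

/-- two orthogonal independent singular vectors -/
lemma exists_singular_pair [Finite F] (hf : IsUnitaryForm σ f) (hn : 7 ≤ n) :
    ∃ u₁ u₂ : Fin n → F, f u₁ u₁ = 0 ∧ f u₂ u₂ = 0 ∧ f u₁ u₂ = 0 ∧
      ∀ α β : F, α • u₁ + β • u₂ = 0 → α = 0 ∧ β = 0 := by
  classical
  have h := herm_of_unitary hf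
  have hfr : Module.finrank F (Fin n → F) = n := Module.finrank_fin_fun F
  obtain ⟨y₁, _, hy₁⟩ := h.exists_perp ∅ (by rw [hfr]; simp; omega) 1 (map_one _)
  obtain ⟨y₂, hp₂, hy₂⟩ := h.exists_perp {y₁} (by rw [hfr]; simp; omega) (-1) (by simp)
  obtain ⟨y₃, hp₃, hy₃⟩ := h.exists_perp {y₁, y₂} (by
    rw [hfr]
    have := Finset.card_le_two (a := y₁) (b := y₂)
    omega) 1 (map_one _)
  obtain ⟨y₄, hp₄, hy₄⟩ := h.exists_perp {y₁, y₂, y₃} (by
    rw [hfr]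
    have := Finset.card_le_three (a := y₁) (b := y₂) (c := y₃)
    omega) (-1) (by simp)
  have h21 : f y₂ y₁ = 0 := hp₂ y₁ (by simp)
  have h31 : f y₃ y₁ = 0 := hp₃ y₁ (by simp)
  have h32 : f y₃ y₂ = 0 := hp₃ y₂ (by simp)
  have h41 : f y₄ y₁ = 0 := hp₄ y₁ (by simp)
  have h42 : f y₄ y₂ = 0 := hp₄ y₂ (by simp)
  have h43 : f y₄ y₃ = 0 := hp₄ y₃ (by simp)
  have h12 := h.swap_zero h21
  have h13 := h.swap_zero h31
  have h23 := h.swap_zero h32
  have h14 := h.swap_zero h41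
  have h24 := h.swap_zero h42
  have h34 := h.swap_zero h43
  refine ⟨y₁ + y₂, y₃ + y₄, ?_, ?_, ?_, ?_⟩
  · rw [h.add_left, h.add_right, h.add_right, hy₁, hy₂, h12, h21]; ring
  · rw [h.add_left, h.add_right, h.add_right, hy₃, hy₄, h34, h43]; ring
  · rw [h.add_left, h.add_right, h.add_right, h13, h14, h23, h24]; ring
  · intro α β hαβ
    have e1 := congrArg (fun v => f v y₁) hαβ
    have e3 := congrArg (fun v => f v y₃) hαβ
    simp only [h.add_left, h.smul_left, hy₁, h21, h31, h41, h.zero_left, hy₃, h13, h23, h43] at e1 e3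
    constructor
    · simpa using e1
    · simpa using e3

lemma not_le_subalgebraNormalizer [Finite F] (hf : IsUnitaryForm σ f) (hn : 7 ≤ n)
    (K : Subalgebra F (Matrix (Fin n) (Fin n) F)) (hK : IsFieldSubalgebra n K) :
    ¬ Iso f ⊓ specialLinear (Fin n) F ≤ subalgebraNormalizer K := by
  intro hle
  have h := herm_of_unitary hf
  obtain ⟨u, _, hu, _, _, hind⟩ := exists_singular_pair hf hn
  have hu0 : u ≠ 0 := by
    rintro rfl
    have := (hind 1 0 (by simp)).1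
    exact one_ne_zero this
  obtain ⟨a, ha0, ha⟩ := h.exists_z
  exact tv_not_mem_subalgebraNormalizer (by omega) K hK u (uφ f u a) _ hu0 (uφ_ne_zero hf hu0 ha0)
    (hle (utv_mem hf u a hu ha))

end Cfsg.Agent.Lib.Helper97UProper2
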