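import Cfsg.Agent.Lib.Helper97UProper2

set_option autoImplicit false

namespace Cfsg.Agent.Lib.Helper97UProper3

open Cfsg Cfsg.Geo Matrix Cfsg.Agent.Lib.Helper97AschBase Cfsg.Agent.Lib.Helper97AschForms
  Cfsg.Agent.Lib.Helper97AschTransv Cfsg.Agent.Lib.Helper95Herm Cfsg.Agent.Lib.Helper97UBase
  Cfsg.Agent.Lib.Helper97UProper Cfsg.Agent.Lib.Helper97AschHeis Cfsg.Agent.Lib.Helper97AschStd
  Cfsg.Agent.Lib.Helper97UProper2
open scoped MatrixGroups

variable {n : ℕ} {F : Type*} [Field F]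

lemma heis_of_noncomm (hn : n.Prime) (hodd : n ≠ 2) {N : Subgroup (GL (Fin n) F)}
    (hNSL : N ≤ specialLinear (Fin n) F) (habs : ActsAbsolutelyIrreducibly (matrixSet N))
    (hcomm : ⁅N, N⁆ ≤ scalars (Fin n) F) {x y : GL (Fin n) F} (hx : x ∈ N) (hy : y ∈ N)
    (hxy : x * y ≠ y * x) : ∃ ζ : F, Heis n F x y ζ := by
  obtain ⟨ζ, hζn, hζ⟩ := comm_scalar hNSL hcomm hx hy
  have hζ1 : ζ ≠ 1 := by
    rintro rfl
    apply hxy
    apply Units.ext
    rw [Units.val_mul, Units.val_mul, hζ, one_smul]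
  have hprim := isPrimitiveRoot_of_prime hn hζn hζ1
  have hζ0 : ζ ≠ 0 := hprim.ne_zero hn.ne_zero
  have hrel' : (y : Matrix (Fin n) (Fin n) F) * x = ζ⁻¹ • ((x : Matrix (Fin n) (Fin n) F) * y) := by
    rw [hζ, smul_smul, inv_mul_cancel₀ hζ0, one_smul]
  refine ⟨ζ, hprim, hζ, pow_eq_one_of_mem hn hodd hNSL habs hcomm hx,
    pow_eq_one_of_mem hn hodd hNSL habs hcomm hy, ?_⟩
  exact (pow_eq_one_of_conj hprim.inv (hn.odd_of_ne_two hodd) x y
    (mem_specialLinear_iff.mp (hNSL hx)) (conj_of_rel hrel')).2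

/-- the fixed space -/
def fixS (c : GL (Fin n) F) : Submodule F (Fin n → F) :=
  LinearMap.eqLocus (Matrix.toLin' (c : Matrix (Fin n) (Fin n) F)) LinearMap.id

lemma mem_fixS {c : GL (Fin n) F} {v : Fin n → F} :
    v ∈ fixS c ↔ (c : Matrix (Fin n) (Fin n) F) *ᵥ v = v := by
  unfold fixS
  rw [LinearMap.mem_eqLocus, Matrix.toLin'_apply, LinearMap.id_apply]

lemma finrank_fixS_le_one [NeZero n] {c w : GL (Fin n) F} {ζ : F} (h : Heis n F c w ζ) :
    Module.finrank F (fixS c) ≤ 1 := by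
  obtain ⟨B, hBx, _⟩ := exists_std h
  have hle : fixS c ≤ Submodule.span F {(B : Matrix (Fin n) (Fin n) F) *ᵥ Pi.single 0 1} := by
    intro v hv
    rw [mem_fixS] at hv
    obtain ⟨v', hv'⟩ : ∃ v', v' = ((B⁻¹ : GL (Fin n) F) : Matrix (Fin n) (Fin n) F) *ᵥ v := ⟨_, rfl⟩
    have hvB : v = (B : Matrix (Fin n) (Fin n) F) *ᵥ v' := by rw [hv', mulVec_inv_mulVec]
    have h1 : stdX n ζ *ᵥ v' = v' := by
      apply mulVec_injective B
      simp only
      rw [Matrix.mulVec_mulVec, ← hBx, ← Matrix.mulVec_mulVec, ← hvB, hv]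
    have h2 : ∀ j : Fin n, j ≠ 0 → v' j = 0 := by
      intro j hj
      have h3 := congrFun h1 j
      unfold stdX at h3
      rw [Matrix.mulVec_diagonal] at h3
      have h4 : ζ ^ (j : ℕ) ≠ 1 := by
        apply h.prim.pow_ne_one_of_pos_of_lt _ j.2
        intro h0
        exact hj (Fin.ext h0)
      have h5 : (ζ ^ (j : ℕ) - 1) * v' j = 0 := by rw [sub_mul, h3, one_mul, sub_self]
      rcases mul_eq_zero.mp h5 with h6 | h6
      · exact absurd (sub_eq_zero.mp h6) h4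
      · exact h6
    rw [Submodule.mem_span_singleton]
    refine ⟨v' 0, ?_⟩
    rw [hvB, ← Matrix.mulVec_smul]
    congr 1
    ext j
    by_cases hj : j = 0
    · subst hj; simp
    · simp [hj, h2 j hj]
  refine (Submodule.finrank_mono hle).trans ?_
  exact (finrank_span_le_card _).trans (by simp)

/-- a transvection does not normalise an extraspecial group of class six (dimension at least five) -/
lemma tv_not_mem_normalizer (hn : n.Prime) (h5 : 5 ≤ n) {N : Subgroup (GL (Fin n) F)}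
    (hNSL : N ≤ specialLinear (Fin n) F) (habs : ActsAbsolutelyIrreducibly (matrixSet N))
    (hcomm : ⁅N, N⁆ ≤ scalars (Fin n) F) (u φ : Fin n → F) (hφu : φ ⬝ᵥ u = 0) (hu0 : u ≠ 0)
    (hφ0 : φ ≠ 0) : tv u φ hφu ∉ subgroupNormalizer N := by
  intro ht
  have : NeZero n := ⟨hn.ne_zero⟩
  have hodd : n ≠ 2 := by omega
  unfold subgroupNormalizer at ht
  rw [Subgroup.mem_normalizer_iff] at ht
  obtain ⟨t, htdef⟩ : ∃ t, t = tv u φ hφu := ⟨_, rfl⟩
  rw [← htdef] at ht
  have htv : ∀ v, (t : Matrix (Fin n) (Fin n) F) *ᵥ v = v + (φ ⬝ᵥ v) • u := by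
    intro v; rw [htdef, tv_mulVec]
  have htinv : ∀ v, φ ⬝ᵥ v = 0 → ((t⁻¹ : GL (Fin n) F) : Matrix (Fin n) (Fin n) F) *ᵥ v = v := by
    intro v hv
    have h1 : (t : Matrix (Fin n) (Fin n) F) *ᵥ v = v := by rw [htv, hv, zero_smul, add_zero]
    conv_lhs => rw [← h1]
    rw [inv_mulVec_mulVec]
  -- commutators are trivial
  have hcomm1 : ∀ x ∈ N, t * x * t⁻¹ * x⁻¹ = 1 := by
    intro x hx
    have hc : t * x * t⁻¹ * x⁻¹ ∈ N := N.mul_mem ((ht x).mp hx) (N.inv_mem hx)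
    obtain ⟨c, hcdef⟩ : ∃ c, c = t * x * t⁻¹ * x⁻¹ := ⟨_, rfl⟩
    rw [← hcdef] at hc ⊢
    let K₀ := LinearMap.ker ((dotL φ).prod
      ((dotL φ) ∘ₗ Matrix.toLin' ((x⁻¹ : GL (Fin n) F) : Matrix (Fin n) (Fin n) F)))
    have hK₀ : n ≤ Module.finrank F K₀ + 2 := finrank_ker_two _ _
    have hle : K₀ ≤ fixS c := by
      intro v hv
      rw [LinearMap.mem_ker] at hv
      have hv1 : φ ⬝ᵥ v = 0 := congrArg Prod.fst hv
      have hv2 : φ ⬝ᵥ (((x⁻¹ : GL (Fin n) F) : Matrix (Fin n) (Fin n) F) *ᵥ v) = 0 := by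
        have := congrArg Prod.snd hv
        simpa using this
      rw [mem_fixS, hcdef, Units.val_mul, Units.val_mul, Units.val_mul, ← Matrix.mulVec_mulVec,
        ← Matrix.mulVec_mulVec, ← Matrix.mulVec_mulVec, htinv _ hv2, mulVec_inv_mulVec, htv, hv1,
        zero_smul, add_zero]
    have hfr : 3 ≤ Module.finrank F (fixS c) := by
      have := Submodule.finrank_mono hle
      omega
    by_cases hcen : ∀ w ∈ N, c * w = w * c
    · obtain ⟨κ, hκ⟩ := (mem_scalars_iff _).mp (mem_scalars_of_comm hn.pos habs hcen)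
      have hne : fixS c ≠ ⊥ := by
        intro hb
        rw [hb, finrank_bot] at hfr
        omega
      obtain ⟨v, hv, hv0⟩ := Submodule.exists_mem_ne_zero_of_ne_bot hne
      rw [mem_fixS, hκ, Matrix.smul_mulVec, Matrix.one_mulVec] at hv
      have hκ1 : (κ : F) = 1 := by
        have h2 : ((κ : F) - 1) • v = 0 := by rw [sub_smul, hv, one_smul, sub_self]
        rcases smul_eq_zero.mp h2 with h3 | h3
        · exact sub_eq_zero.mp h3
        · exact absurd h3 hv0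
      apply Units.ext
      rw [hκ, hκ1, one_smul, Units.val_one]
    · push Not at hcen
      obtain ⟨w, hw, hcw⟩ := hcen
      obtain ⟨ζ, hζ⟩ := heis_of_noncomm hn hodd hNSL habs hcomm hc hw hcw
      have := finrank_fixS_le_one hζ
      omega
  have hcen : ∀ x ∈ N, t * x = x * t := by
    intro x hx
    have := hcomm1 x hx
    calc t * x = (t * x * t⁻¹ * x⁻¹) * (x * t) := by group
      _ = x * t := by rw [this, one_mul]
  obtain ⟨κ, hκ⟩ := (mem_scalars_iff _).mp (mem_scalars_of_comm hn.pos habs hcen)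
  obtain ⟨v, hv0, hv1, _⟩ := exists_ker_two (by omega) (dotL φ) (dotL φ)
  rw [dotL_apply] at hv1
  have h1 := htv v
  rw [hκ, Matrix.smul_mulVec, Matrix.one_mulVec, hv1, zero_smul, add_zero] at h1
  have hκ1 : (κ : F) = 1 := by
    have h2 : ((κ : F) - 1) • v = 0 := by rw [sub_smul, h1, one_smul, sub_self]
    rcases smul_eq_zero.mp h2 with h3 | h3
    · exact sub_eq_zero.mp h3
    · exact absurd h3 hv0
  obtain ⟨v₁, hv₁⟩ := exists_dot_eq_one hφ0
  have h2 := htv v₁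
  rw [hκ, hκ1, one_smul, Matrix.one_mulVec, hv₁, one_smul] at h2
  exact hu0 (by simpa using h2)

variable {σ : F ≃+* F} {f : (Fin n → F) → (Fin n → F) → F}

lemma not_le_normalizer [Finite F] (hf : IsUnitaryForm σ f) (hn : n.Prime) (h7 : 7 ≤ n)
    {N : Subgroup (GL (Fin n) F)}
    (hNSL : N ≤ specialLinear (Fin n) F) (habs : ActsAbsolutelyIrreducibly (matrixSet N))
    (hcomm : ⁅N, N⁆ ≤ scalars (Fin n) F) :
    ¬ Iso f ⊓ specialLinear (Fin n) F ≤ subgroupNormalizer N := by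
  intro hle
  have h := herm_of_unitary hf
  obtain ⟨u, _, hu, _, _, hind⟩ := exists_singular_pair hf h7
  have hu0 : u ≠ 0 := by
    rintro rfl
    have := (hind 1 0 (by simp)).1
    exact one_ne_zero this
  obtain ⟨a, ha0, ha⟩ := h.exists_z
  exact tv_not_mem_normalizer hn (by omega) hNSL habs hcomm u (uφ f u a) _ hu0
    (uφ_ne_zero hf hu0 ha0) (hle (utv_mem hf u a hu ha))

end Cfsg.Agent.Lib.Helper97UProper3
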