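import Cfsg.Agent.Lib.Helper97UProper2
import Cfsg.Agent.Lib.Helper97AschSubfield

set_option autoImplicit false

namespace Cfsg.Agent.Lib.Helper97UProper4

open Cfsg Cfsg.Geo Matrix Cfsg.Agent.Lib.Helper97AschBase Cfsg.Agent.Lib.Helper97AschForms
  Cfsg.Agent.Lib.Helper97AschTransv Cfsg.Agent.Lib.Helper95Herm Cfsg.Agent.Lib.Helper97UBase
  Cfsg.Agent.Lib.Helper97UProper Cfsg.Agent.Lib.Helper97UProper2 Cfsg.Agent.Lib.Helper97AschSubfield
open scoped MatrixGroups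

variable {n : ℕ} {F : Type*} [Field F]

lemma exists_moved [Fintype F] {F₁ : Subfield F} (h : F₁ ≠ ⊤) :
    ∃ τ : F →+* F, (∀ a ∈ F₁, τ a = a) ∧ ∃ l, τ l ≠ l := by
  obtain ⟨τ, F₂, r, hr, hcard, hτ0, hτ1⟩ := exists_aut h
  refine ⟨τ, hτ0, ?_⟩
  by_contra hcon
  push Not at hcon
  apply subfield_ne_top_of_card hr hcard
  rw [eq_top_iff]
  intro a _
  exact hτ1 a (hcon a)

lemma tv_fixed (hn : 3 ≤ n) (τ : F →+* F) {F₁ : Subfield F} (hτ : ∀ a ∈ F₁, τ a = a)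
    (C : GL (Fin n) F) (u φ : Fin n → F) (hφu : φ ⬝ᵥ u = 0)
    (ht : tv u φ hφu ∈ subfieldSubgroup F₁ C) (i j : Fin n) :
    τ ((((C⁻¹ : GL (Fin n) F) : Matrix (Fin n) (Fin n) F) *ᵥ u) i * (φ ᵥ* (C : Matrix (Fin n) (Fin n) F)) j) =
      (((C⁻¹ : GL (Fin n) F) : Matrix (Fin n) (Fin n) F) *ᵥ u) i * (φ ᵥ* (C : Matrix (Fin n) (Fin n) F)) j := by
  obtain ⟨g, hg, hgt⟩ := ht
  have hgt' : C * g * C⁻¹ = tv u φ hφu := hgt
  obtain ⟨u', hu'⟩ : ∃ u', u' = ((C⁻¹ : GL (Fin n) F) : Matrix (Fin n) (Fin n) F) *ᵥ u := ⟨_, rfl⟩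
  obtain ⟨φ', hφ'⟩ : ∃ φ', φ' = φ ᵥ* (C : Matrix (Fin n) (Fin n) F) := ⟨_, rfl⟩
  rw [← hu', ← hφ']
  have hgval : (g : Matrix (Fin n) (Fin n) F) = 1 + vecMulVec u' φ' := by
    have e1 : g = C⁻¹ * tv u φ hφu * C := by rw [← hgt']; group
    rw [e1, Units.val_mul, Units.val_mul, tv_val, mul_add, add_mul, mul_one, vi, Matrix.mul_vecMulVec,
      Matrix.vecMulVec_mul, hu', hφ']
  obtain ⟨g₀, ⟨m, rfl⟩, z, hz, hgz⟩ := Subgroup.mem_sup_of_normal_right.mp hg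
  obtain ⟨c, hc⟩ := (mem_scalars_iff z).mp hz
  have hentry : ∀ a b, (g : Matrix (Fin n) (Fin n) F) a b = ((m a b : F₁) : F) * c := by
    intro a b
    rw [← hgz, Units.val_mul, hc, Matrix.mul_smul, mul_one]
    simp [mul_comm]
  have hτg : ∀ a b, τ ((g : Matrix (Fin n) (Fin n) F) a b) =
      (τ c / c) * (g : Matrix (Fin n) (Fin n) F) a b := by
    intro a b
    rw [hentry, map_mul, hτ _ (m a b).2]
    field_simp
  -- the factor is one
  obtain ⟨v, hv0, hv1, hv2⟩ := exists_ker_two hn (dotL φ') (dotL (fun k => τ (φ' k)))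
  rw [dotL_apply] at hv1 hv2
  have h1 : (g : Matrix (Fin n) (Fin n) F) *ᵥ v = v := by
    rw [hgval, Matrix.add_mulVec, Matrix.one_mulVec, vecMulVec_mulVec, hv1]
    simp
  have hmap : (g : Matrix (Fin n) (Fin n) F).map τ = 1 + vecMulVec (fun k => τ (u' k)) (fun k => τ (φ' k)) := by
    ext a b
    rw [Matrix.map_apply, hgval, Matrix.add_apply, Matrix.add_apply, vecMulVec_apply, vecMulVec_apply,
      map_add, map_mul]
    congr 1
    by_cases hab : a = b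
    · subst hab; simp
    · simp [hab]
  have h2 : (g : Matrix (Fin n) (Fin n) F).map τ *ᵥ v = v := by
    rw [hmap, Matrix.add_mulVec, Matrix.one_mulVec, vecMulVec_mulVec, hv2]
    simp
  have h3 : (g : Matrix (Fin n) (Fin n) F).map τ = (τ c / c) • (g : Matrix (Fin n) (Fin n) F) := by
    ext a b
    rw [Matrix.map_apply, hτg, Matrix.smul_apply, smul_eq_mul]
  have hχ : τ c / c = 1 := by
    rw [h3, Matrix.smul_mulVec, h1] at h2
    have h4 : (τ c / c - 1) • v = 0 := by rw [sub_smul, h2, one_smul, sub_self]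
    rcases smul_eq_zero.mp h4 with h5 | h5
    · exact sub_eq_zero.mp h5
    · exact absurd h5 hv0
  have h5 := hτg i j
  rw [hχ, one_mul, hgval, Matrix.add_apply, vecMulVec_apply, map_add] at h5
  have h6 : τ ((1 : Matrix (Fin n) (Fin n) F) i j) = (1 : Matrix (Fin n) (Fin n) F) i j := by
    by_cases hab : i = j
    · subst hab; simp
    · simp [hab]
  rw [h6] at h5
  exact add_left_cancel h5

variable {σ : F ≃+* F} {f : (Fin n → F) → (Fin n → F) → F}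

lemma not_le_subfieldSubgroup [Fintype F] (hf : IsUnitaryForm σ f) (hn : 7 ≤ n) {F₁ : Subfield F}
    (hF₁ : F₁ ≠ ⊤) (C : GL (Fin n) F) :
    ¬ Iso f ⊓ specialLinear (Fin n) F ≤ subfieldSubgroup F₁ C := by
  intro hle
  have h := herm_of_unitary hf
  obtain ⟨τ, hτ, l, hl⟩ := exists_moved hF₁
  obtain ⟨a, ha0, ha⟩ := h.exists_z
  -- singular vectors are rational up to scalars
  have hrat : ∀ u : Fin n → F, u ≠ 0 → f u u = 0 → ∃ κ : F, κ ≠ 0 ∧
      ∀ i, τ (κ * (((C⁻¹ : GL (Fin n) F) : Matrix (Fin n) (Fin n) F) *ᵥ u) i) =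
        κ * (((C⁻¹ : GL (Fin n) F) : Matrix (Fin n) (Fin n) F) *ᵥ u) i := by
    intro u hu0 hu
    have h1 := tv_fixed (by omega) τ hτ C u (uφ f u a) _ (hle (utv_mem hf u a hu ha))
    have h2 : uφ f u a ᵥ* (C : Matrix (Fin n) (Fin n) F) ≠ 0 := by
      intro h0
      apply uφ_ne_zero hf hu0 ha0
      have := congrArg (fun w => w ᵥ* ((C⁻¹ : GL (Fin n) F) : Matrix (Fin n) (Fin n) F)) h0
      simpa [Matrix.vecMul_vecMul, iv] using this
    obtain ⟨j, hj⟩ := Function.ne_iff.mp h2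
    rw [Pi.zero_apply] at hj
    refine ⟨_, hj, fun i => ?_⟩
    rw [mul_comm]
    exact h1 i j
  obtain ⟨u₁, u₂, hu₁, hu₂, h12, hind⟩ := exists_singular_pair hf hn
  have hu₁0 : u₁ ≠ 0 := by
    rintro rfl
    exact one_ne_zero (hind 1 0 (by simp)).1
  have hu₂0 : u₂ ≠ 0 := by
    rintro rfl
    exact one_ne_zero (hind 0 1 (by simp)).2
  obtain ⟨κ₁, hκ₁0, hκ₁⟩ := hrat u₁ hu₁0 hu₁
  obtain ⟨κ₂, hκ₂0, hκ₂⟩ := hrat u₂ hu₂0 hu₂
  have h21 := h.swap_zero h12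
  -- the mixed vector
  obtain ⟨w, hw⟩ : ∃ w, w = κ₁ • u₁ + (l * κ₂) • u₂ := ⟨_, rfl⟩
  have hww : f w w = 0 := by
    rw [hw]
    simp only [h.add_left, h.add_right, h.smul_left, h.smul_right, hu₁, hu₂, h12, h21]
    ring
  have hw0 : w ≠ 0 := by
    intro h0
    rw [hw] at h0
    exact hκ₁0 (hind _ _ h0).1
  obtain ⟨κ, hκ0, hκ⟩ := hrat w hw0 hww
  -- compare
  have key : (τ κ - κ) • (κ₁ • u₁) + (τ κ * τ l - κ * l) • (κ₂ • u₂) = 0 := by
    apply mulVec_injective C⁻¹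
    simp only [Matrix.mulVec_zero]
    ext i
    have e := hκ i
    rw [hw, Matrix.mulVec_add, Matrix.mulVec_smul, Matrix.mulVec_smul, Pi.add_apply, Pi.smul_apply,
      Pi.smul_apply, smul_eq_mul, smul_eq_mul] at e
    have e1 := hκ₁ i
    have e2 := hκ₂ i
    rw [Matrix.mulVec_add, Matrix.mulVec_smul, Matrix.mulVec_smul, Matrix.mulVec_smul,
      Matrix.mulVec_smul]
    simp only [Pi.add_apply, Pi.smul_apply, smul_eq_mul, Pi.zero_apply]
    rw [map_mul, map_add, mul_assoc l, map_mul τ l, e1, e2] at e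
    linear_combination e
  rw [smul_smul, smul_smul] at key
  obtain ⟨k1, k2⟩ := hind _ _ key
  have hτκ : τ κ = κ := by
    rcases mul_eq_zero.mp k1 with h5 | h5
    · exact sub_eq_zero.mp h5
    · exact absurd h5 hκ₁0
  have h6 : τ κ * τ l - κ * l = 0 := by
    rcases mul_eq_zero.mp k2 with h5 | h5
    · exact h5
    · exact absurd h5 hκ₂0
  rw [hτκ, ← mul_sub] at h6
  rcases mul_eq_zero.mp h6 with h7 | h7
  · exact hκ0 h7
  · exact hl (sub_eq_zero.mp h7)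

end Cfsg.Agent.Lib.Helper97UProper4
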