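import Cfsg.Agent.Lib.Helper97AschMain
import Cfsg.Agent.Lib.Helper97UProper
import Cfsg.Agent.Lib.Helper97UProper2
import Cfsg.Agent.Lib.Helper97UProper3
import Cfsg.Agent.Lib.Helper97UProper4
import Cfsg.Agent.Lib.Helper97UCliff
import Cfsg.Agent.Lib.Helper97UC6
import Cfsg.Agent.Lib.Helper97USub
import Cfsg.Agent.Lib.Helper97UQF

set_option autoImplicit false

namespace Cfsg.Agent.Lib.Helper97UMain

open Cfsg Cfsg.Geo Matrix
open Cfsg.Agent.Lib.Helper97AschBase Cfsg.Agent.Lib.Helper97AschSchur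
  Cfsg.Agent.Lib.Helper97AschClifford Cfsg.Agent.Lib.Helper97AschCore Cfsg.Agent.Lib.Helper97AschC6
  Cfsg.Agent.Lib.Helper97AschForms Cfsg.Agent.Lib.Helper97AschSubfield
  Cfsg.Agent.Lib.Helper97UBase Cfsg.Agent.Lib.Helper97UProper Cfsg.Agent.Lib.Helper97UProper2
  Cfsg.Agent.Lib.Helper97UProper3 Cfsg.Agent.Lib.Helper97UProper4 Cfsg.Agent.Lib.Helper97UCliff
  Cfsg.Agent.Lib.Helper97UC6 Cfsg.Agent.Lib.Helper97USub Cfsg.Agent.Lib.Helper97UQF
open scoped MatrixGroups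

variable {n : ℕ} {F : Type*} [Field F]

lemma eq_inf_of_le' {G H X : Subgroup (GL (Fin n) F)} (hH : IsMaximalIn G H) (hle : H ≤ X)
    (hX : ¬ G ≤ X) : H = X ⊓ G := by
  rcases hH.2 (X ⊓ G) (le_inf hle hH.1.le) inf_le_right with h | h
  · exact h.symm
  · exact absurd (inf_eq_right.mp h) hX

/-- Aschbacher's theorem for the maximal subgroups of `SU_n(q)`, `n ≥ 7` a prime. -/
theorem umain [Fintype F] (hn : n.Prime) (h7 : 7 ≤ n) {σ : F ≃+* F}
    {f : (Fin n → F) → (Fin n → F) → F} (hf : IsUnitaryForm σ f) {q : ℕ}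
    (hq : Fintype.card F = q ^ 2) (hσq : ∀ a, σ a = a ^ q)
    (H : Subgroup (GL (Fin n) F)) (hH : IsMaximalIn (Iso f ⊓ specialLinear (Fin n) F) H) :
    (∃ W : Submodule F (Fin n → F), W ≠ ⊥ ∧ IsTotallySingularFor f W ∧
      H = subspaceStabilizer W ⊓ (Iso f ⊓ specialLinear (Fin n) F)) ∨
    (∃ W : Submodule F (Fin n → F), W ≠ ⊥ ∧ IsNondegenerateOn f W ∧ 2 * Module.finrank F W < n ∧
      H = subspaceStabilizer W ⊓ (Iso f ⊓ specialLinear (Fin n) F)) ∨
    (∃ D : Fin n → Submodule F (Fin n → F), IsNondegenerateMDecomposition f 1 D ∧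
      H = decompositionStabilizer D ⊓ (Iso f ⊓ specialLinear (Fin n) F)) ∨
    (∃ K : Subalgebra F (Matrix (Fin n) (Fin n) F), IsFieldSubalgebra n K ∧ IsAdjointClosedFor f K ∧
      H = subalgebraNormalizer K ⊓ (Iso f ⊓ specialLinear (Fin n) F)) ∨
    (∃ (F₀ : Subfield F) (r : ℕ) (P : GL (Fin n) F), r.Prime ∧ Odd r ∧
      Fintype.card F = Nat.card F₀ ^ r ∧ IsFormRationalStructure f F₀ 1 P ∧
      H = subfieldSubgroup F₀ P ⊓ (Iso f ⊓ specialLinear (Fin n) F)) ∨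
    (Odd q ∧ ∃ (F₀ : Subfield F) (P : GL (Fin n) F), Fintype.card F = Nat.card F₀ ^ 2 ∧
      IsFormRationalStructure f F₀ 1 P ∧
      H = subfieldSubgroup F₀ P ⊓ (Iso f ⊓ specialLinear (Fin n) F)) ∨
    (∃ R : Subgroup (GL (Fin n) F),
      (∃ p e : ℕ, p.Prime ∧ CharP F p ∧ Fintype.card F = p ^ e ∧ 0 < e ∧ n ≠ p ∧ n ∣ p ^ e - 1 ∧
        ∀ d, 0 < d → d < e → ¬ n ∣ p ^ d - 1) ∧
      IsSymplecticTypeGroup n R ∧ ActsAbsolutelyIrreducibly (matrixSet R) ∧ R ≤ Iso f ∧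
      Nat.card R = n ^ 3 ∧ Nat.card (Subgroup.center R) = n ∧
      H = subgroupNormalizer R ⊓ (Iso f ⊓ specialLinear (Fin n) F)) ∨
    InUnitaryResidualClass H := by
  have hn2 : 2 ≤ n := hn.two_le
  have : NeZero n := ⟨hn.ne_zero⟩
  have hodd : n ≠ 2 := by omega
  have hoddn : Odd n := hn.odd_of_ne_two hodd
  have hHI : H ≤ Iso f := hH.1.le.trans inf_le_left
  have hHSL : H ≤ specialLinear (Fin n) F := hH.1.le.trans inf_le_right
  -- the subfield conclusion
  have concl5 : ∀ (P : Subgroup (GL (Fin n) F)), P ≤ H → Nz H P →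
      ActsAbsolutelyIrreducibly (matrixSet P) →
      ∀ F₀ : Subfield F, F₀ ≠ ⊤ → RealisableOver F₀ (matrixSet P) →
      (∃ (F₀ : Subfield F) (r : ℕ) (P : GL (Fin n) F), r.Prime ∧ Odd r ∧
        Fintype.card F = Nat.card F₀ ^ r ∧ IsFormRationalStructure f F₀ 1 P ∧
        H = subfieldSubgroup F₀ P ⊓ (Iso f ⊓ specialLinear (Fin n) F)) ∨
      (Odd q ∧ ∃ (F₀ : Subfield F) (P : GL (Fin n) F), Fintype.card F = Nat.card F₀ ^ 2 ∧
        IsFormRationalStructure f F₀ 1 P ∧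
        H = subfieldSubgroup F₀ P ⊓ (Iso f ⊓ specialLinear (Fin n) F)) := by
    intro P hPH hnorm habs F₀ hF₀ hreal
    obtain ⟨F₁, r, C, hr, hcard, hor, hC, hle⟩ :=
      subfield_case hf hoddn hn2 hq hσq hnorm (hPH.trans hHI) habs hF₀ hreal
    have heq := eq_inf_of_le' hH hle
      (not_le_subfieldSubgroup hf h7 (subfield_ne_top_of_card hr hcard) C)
    rcases hor with h1 | ⟨rfl, h1⟩
    · exact Or.inl ⟨F₁, r, C, hr, h1, hcard, hC, heq⟩
    · exact Or.inr ⟨h1, F₁, C, hcard, hC, heq⟩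
  -- reducible case
  by_cases hirr : ActsIrreducibly (matrixSet H)
  swap
  · rw [actsIrreducibly_iff] at hirr
    push Not at hirr
    obtain ⟨W, hW, h0, h1⟩ := hirr
    rcases reducible_case hf hoddn hHI hW h0 h1 with ⟨U, hU0, hU, hle⟩ | ⟨U, hU0, hU1, hU, hlt, hle⟩
    · left
      exact ⟨U, hU0, hU, eq_inf_of_le' hH hle (not_le_stab_singular hf hU0 hU)⟩
    · right; left
      exact ⟨U, hU0, hU, hlt, eq_inf_of_le' hH hle (not_le_stab_nondeg hf hU0 hU1 hU)⟩
  -- imprimitive case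
  by_cases himp : ∃ D : Fin n → Submodule F (Fin n → F), IsNondegenerateMDecomposition f 1 D ∧
      H ≤ decompositionStabilizer D
  · obtain ⟨D, hD, hle⟩ := himp
    right; right; left
    exact ⟨D, hD, eq_inf_of_le' hH hle (not_le_decomp hf (by omega) D hD)⟩
  -- extension field case
  by_cases hext : ∃ K : Subalgebra F (Matrix (Fin n) (Fin n) F), IsFieldSubalgebra n K ∧
      IsAdjointClosedFor f K ∧ H ≤ subalgebraNormalizer K
  · obtain ⟨K, hK, hKa, hle⟩ := hext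
    right; right; right; left
    exact ⟨K, hK, hKa, eq_inf_of_le' hH hle (not_le_subalgebraNormalizer hf h7 K hK)⟩
  -- dichotomy for normal subgroups
  have hdich : ∀ T : Subgroup (GL (Fin n) F), T ≤ H → Nz H T →
      T ≤ scalars (Fin n) F ∨ ActsAbsolutelyIrreducibly (matrixSet T) := by
    intro T hTH hnorm
    rcases clifford' hn hirr hnorm with h | h | ⟨D, hD, hle, _, hχ⟩
    · exact Or.inl h
    · rcases absIrred_or_field hn h with h' | h'
      · exact Or.inr h'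
      · exact absurd ⟨_, h', adjointClosed hf (hTH.trans hHI), le_normalizer_centralizer hnorm⟩ hext
    · exact absurd ⟨D, orth_decomp hf hoddn hHI hirr (hTH.trans hHI) hD hle hχ, hle⟩ himp
  have hns : ¬ H ≤ scalars (Fin n) F := fun h => not_irred_of_le_scalars hn2 h hirr
  by_cases h6 : ∃ N : Subgroup (GL (Fin n) F), N ≤ H ∧ Nz H N ∧ ⁅N, N⁆ ≤ scalars (Fin n) F ∧
      ¬ N ≤ scalars (Fin n) F
  · obtain ⟨N, hNH, hnorm, hcomm, hNs⟩ := h6
    have habs : ActsAbsolutelyIrreducibly (matrixSet N) := (hdich N hNH hnorm).resolve_left hNs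
    have hall : ∀ A : Subgroup (GL (Fin n) F), A ≤ N → Nz H A →
        (∀ a ∈ A, ∀ b ∈ A, a * b = b * a) → A ≤ scalars (Fin n) F := by
      intro A hAN hA hc
      exact (hdich A (hAN.trans hNH) hA).resolve_right (not_absIrred_of_comm hn2 hc)
    rcases c6u hn hodd hHSL hNH hnorm habs hcomm hall with ⟨hsym, hc1, hc2, hdata⟩ | ⟨F₀, hF₀, hreal⟩
    · right; right; right; right; right; right; left
      exact ⟨N, hdata, hsym, habs, hNH.trans hHI, hc1, hc2,
        eq_inf_of_le' hH (le_normalizer_of_Nz hnorm)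
          (not_le_normalizer hf hn h7 (hNH.trans hHSL) habs hcomm)⟩
    · rcases concl5 N hNH hnorm habs F₀ hF₀ hreal with h | h
      · exact Or.inr (Or.inr (Or.inr (Or.inr (Or.inl h))))
      · exact Or.inr (Or.inr (Or.inr (Or.inr (Or.inr (Or.inl h)))))
  · push Not at h6
    obtain ⟨P, hPH, hnorm, hperf, hsimple, hnonab, habs⟩ := exists_core hn hns hdich
      (fun T h1 h2 h3 => h6 T h1 h2 h3)
    by_cases hsub : ∃ F₀ : Subfield F, F₀ ≠ ⊤ ∧ RealisableOver F₀ (matrixSet P)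
    · obtain ⟨F₀, hF₀, hreal⟩ := hsub
      rcases concl5 P hPH hnorm habs F₀ hF₀ hreal with h | h
      · exact Or.inr (Or.inr (Or.inr (Or.inr (Or.inl h))))
      · exact Or.inr (Or.inr (Or.inr (Or.inr (Or.inr (Or.inl h)))))
    right; right; right; right; right; right; right
    refine ⟨P, ⟨hPH, hnorm, hperf, hsimple, hnonab, ?_, habs, ?_⟩, ?_, ?_⟩
    · intro h _ hh
      exact centralizer_scalar_of_perfect hperf habs h hh
    · intro F₀ hF₀ hreal
      exact hsub ⟨F₀, hF₀, hreal⟩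
    · rintro ⟨Q, hQ, hfix⟩
      obtain ⟨F₁, hF₁, hcard⟩ := fix_sigma σ hf.ne_refl hf.involutive
      apply hsub
      refine ⟨F₁, subfield_ne_top_of_card Nat.prime_two hcard,
        realisable_of_bilinear hf hn.pos (hPH.trans hHI) habs hQ.polar_bilinear hQ.nondegenerate ?_
          (fun a ha => (hF₁ a).mp ha)⟩
      intro s hs u v
      unfold QuadraticMap.polar
      rw [← Matrix.mulVec_add, hfix s hs, hfix s hs, hfix s hs]
    · rintro ⟨g, hg, _⟩
      exact no_symplectic hoddn g hg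

/-- the involution of the field with `q ^ 2` elements, and the standard form -/
lemma exists_sigma [Fintype F] {q : ℕ} (hq : Fintype.card F = q ^ 2) :
    ∃ σ : F ≃+* F, (∀ a, σ a = a ^ q) ∧ IsUnitaryForm σ (hermForm n F q) := by
  obtain ⟨p, hchar, e, hp, hcard⟩ := FiniteField.card' F
  have : Fact p.Prime := ⟨hp⟩
  have hdvd : q ∣ p ^ (e : ℕ) := by
    rw [← hcard, hq]
    exact dvd_pow_self q two_ne_zero
  obtain ⟨k, _, hk⟩ := (Nat.dvd_prime_pow hp).mp hdvd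
  have hek : (e : ℕ) = 2 * k := by
    rw [hq, hk, ← pow_mul] at hcard
    rw [mul_comm]
    exact (Nat.pow_right_injective hp.two_le hcard).symm
  have hk0 : 0 < k := by
    have := e.pos
    omega
  have hσ : ∀ a : F, iterateFrobeniusEquiv F p k a = a ^ q := by
    intro a
    rw [iterateFrobeniusEquiv_def, hk]
  have h1 : iterateFrobeniusEquiv F p k ≠ RingEquiv.refl F := by
    intro hrefl
    obtain ⟨a, ha⟩ := exists_not_fixed hp hcard hk0 (by omega : k < (e : ℕ))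
    apply ha
    have h1 := congrArg (fun τ : F ≃+* F => τ a) hrefl
    exact h1
  have h2 : ∀ a : F, iterateFrobeniusEquiv F p k (iterateFrobeniusEquiv F p k a) = a := by
    intro a
    rw [hσ, hσ, ← pow_mul, ← pow_two, ← hq]
    exact FiniteField.pow_card a
  refine ⟨iterateFrobeniusEquiv F p k, hσ, ?_⟩
  have h3 := Cfsg.Agent.Lib.Helper97AschMono.isUnitary_f₀ (1 : GL (Fin n) F) _ h1 h2
  have h4 : (fun u v => f₀ (iterateFrobeniusEquiv F p k)
      ((((1 : GL (Fin n) F)⁻¹ : GL (Fin n) F) : Matrix (Fin n) (Fin n) F) *ᵥ u)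
      ((((1 : GL (Fin n) F)⁻¹ : GL (Fin n) F) : Matrix (Fin n) (Fin n) F) *ᵥ v)) = hermForm n F q := by
    funext u v
    simp only [inv_one, Units.val_one, Matrix.one_mulVec, f₀, hermForm, hσ]
  rwa [h4] at h3

/-- the arithmetic of the class six data -/
lemma field_data_u [Fintype F] (hn : n.Prime) {q : ℕ} (hq : Fintype.card F = q ^ 2)
    (h : ∃ p e : ℕ, p.Prime ∧ CharP F p ∧ Fintype.card F = p ^ e ∧ 0 < e ∧ n ≠ p ∧ n ∣ p ^ e - 1 ∧
        ∀ d, 0 < d → d < e → ¬ n ∣ p ^ d - 1) :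
    ∃ p k : ℕ, p.Prime ∧ CharP F p ∧ q = p ^ k ∧ 0 < k ∧ 2 * k < n ∧
      (p % n) ^ (2 * k) % n = 1 ∧ ∀ d < 2 * k, 0 < d → (p % n) ^ d % n ≠ 1 := by
  obtain ⟨p, e, hp, hchar, hcard, he0, hnp, hdvd, hmin⟩ := h
  have hdvd' : q ∣ p ^ e := by
    rw [← hcard, hq]
    exact dvd_pow_self q two_ne_zero
  obtain ⟨k, _, hk⟩ := (Nat.dvd_prime_pow hp).mp hdvd'
  have hek : e = 2 * k := by
    rw [hq, hk, ← pow_mul] at hcard
    rw [mul_comm]
    exact (Nat.pow_right_injective hp.two_le hcard).symm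
  subst hek
  refine ⟨p, k, hp, hchar, hk, by omega, ?_,
    (Cfsg.Agent.Lib.Helper97AschMain.dvd_pow_sub_one_iff hn.one_lt hp.pos).mp hdvd, fun d hd hd0 hcon =>
      hmin d hd0 hd ((Cfsg.Agent.Lib.Helper97AschMain.dvd_pow_sub_one_iff hn.one_lt hp.pos).mpr hcon)⟩
  by_contra hcon
  push Not at hcon
  have hcop : Nat.Coprime p n := (Nat.coprime_primes hp hn).mpr (Ne.symm hnp)
  have h1 := Nat.ModEq.pow_totient hcop
  rw [Nat.totient_prime hn] at h1
  have h2 : n ∣ p ^ (n - 1) - 1 := (Nat.modEq_iff_dvd' (Nat.one_le_pow _ p hp.pos)).mp h1.symm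
  have := hn.two_le
  exact hmin (n - 1) (by omega) (by omega) h2

end Cfsg.Agent.Lib.Helper97UMain
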