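import Cfsg.Agent.Lib.Helper13UDefs
import Cfsg.Agent.Lib.Helper97UMain

set_option autoImplicit false

/-! ASCH-U, piece `conv`: from the interface to the frozen vocabulary. -/

namespace Cfsg.Agent.Lib.Helper57UConv

open Cfsg Cfsg.Geo Matrix
open Cfsg.Agent.Lib.Helper97AschBase Cfsg.Agent.Lib.Helper97UBase
  Cfsg.Agent.Lib.Helper98AschDefs Cfsg.Agent.Lib.Helper98AschBasic Cfsg.Agent.Lib.Helper13UDefs
open scoped MatrixGroups Kronecker

variable {n : ℕ} {F : Type*} [Field F] {σ : F ≃+* F} {f : (Fin n → F) → (Fin n → F) → F}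

/-- [conv] (from `Helper97UMain.exists_sigma`) -/
theorem exists_US [Fintype F] {q : ℕ} (hq : Fintype.card F = q ^ 2) :
    ∃ σ : F ≃+* F, US σ (hermForm n F q) q := by
  obtain ⟨σ, h1, h2⟩ := Cfsg.Agent.Lib.Helper97UMain.exists_sigma (n := n) hq
  exact ⟨σ, h2, hq, h1⟩

/-- [conv] -/
theorem GU_eq_Iso (q : ℕ) : GU n F q = Iso (hermForm n F q) := rfl

/-- [conv] -/
theorem unitaryPow_herm [Fintype F] {q : ℕ} (hq : Fintype.card F = q ^ 2) (d : ℕ) :
    IsUnitaryFormPow q (hermForm d F q) := by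
  obtain ⟨σ, h1, h2⟩ := Cfsg.Agent.Lib.Helper97UMain.exists_sigma (n := d) hq
  exact ⟨h2.add_left, h2.smul_left, fun v w => by rw [h2.herm v w, h1], h2.nondegenerate⟩

lemma gram_herm (d q : ℕ) (hq : q ≠ 0) : gramMatrix (hermForm d F q) = (1 : Matrix (Fin d) (Fin d) F) := by
  ext a b
  unfold gramMatrix hermForm
  rw [Matrix.one_apply]
  by_cases h : a = b
  · subst h
    rw [if_pos rfl, Finset.sum_eq_single a]
    · simp
    · intro i _ hi
      simp [Pi.single_apply, hi]
    · intro h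
      exact absurd (Finset.mem_univ a) h
  · simp only [h, if_false]
    apply Finset.sum_eq_zero
    intro i _
    by_cases h1 : i = a
    · subst h1
      simp [h, hq]
    · simp [Pi.single_apply, h1]

lemma q_ne_zero [Fintype F] {q : ℕ} (hq : Fintype.card F = q ^ 2) : q ≠ 0 := by
  rintro rfl
  have := Fintype.card_pos (α := F)
  rw [hq] at this
  simp at this

/-- [conv] -/
theorem tensorForm_of_ON [Fintype F] {q : ℕ} (hU : US σ f q) {n₁ n₂ : ℕ} (e : Fin n ≃ Fin n₁ × Fin n₂)
    {P : GL (Fin n) F} (hP : IsON σ f P) :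
    IsTensorFormStructure (fun x : F => x ^ q) f (hermForm n₁ F q) (hermForm n₂ F q) e P := by
  refine ⟨1, one_ne_zero, fun x y => ?_⟩
  have hq := q_ne_zero hU.card
  rw [hP, gram_herm _ _ hq, gram_herm _ _ hq, Matrix.one_kronecker_one, one_mul]
  unfold formOfGram
  simp only [Matrix.one_apply, mul_ite, mul_one, mul_zero, ite_mul, zero_mul, Finset.sum_ite_eq,
    Finset.mem_univ, if_true, hU.pow, Function.comp_apply]
  exact Equiv.sum_comp e (fun a => x a * y a ^ q)

/-- [conv] -/
theorem tensorPower_of_ON [Fintype F] {q : ℕ} (hU : US σ f q) {k t : ℕ} (e : Fin n ≃ (Fin t → Fin k))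
    {P : GL (Fin n) F} (hP : IsON σ f P) :
    IsTensorPowerFormStructure (fun x : F => x ^ q) f (hermForm k F q) e P := by
  classical
  refine ⟨1, one_ne_zero, fun x y => ?_⟩
  have hq := q_ne_zero hU.card
  rw [hP, gram_herm _ _ hq, one_mul]
  have h1 : ∀ a b : Fin t → Fin k, ∏ i, (1 : Matrix (Fin k) (Fin k) F) (a i) (b i) = if a = b then 1 else 0 := by
    intro a b
    simp only [Matrix.one_apply]
    rw [Finset.prod_boole]
    simp [funext_iff]
  simp only [h1, mul_ite, mul_one, mul_zero, ite_mul, zero_mul, Finset.sum_ite_eq,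
    Finset.mem_univ, if_true, hU.pow, Function.comp_apply]
  exact Equiv.sum_comp e (fun a => x a * y a ^ q)

/-- [conv] -/
theorem Iso_le_similarityGroup : Iso f ≤ similarityGroup f := by
  intro g hg
  exact ⟨1, fun u v => by rw [Units.val_one, one_mul]; exact hg u v⟩

end Cfsg.Agent.Lib.Helper57UConv
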