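import Mathlib
import Cfsg.Prelude
import Cfsg.Agent.Lib.Helper42LBDefs
import Cfsg.Agent.Lib.Helper7SU

set_option autoImplicit false

/-! PROJECT 42, piece U1: `uni_H2`, `uni_H4`. -/

namespace Cfsg.Agent.Lib.Helper6LBU1

open Matrix Cfsg Cfsg.Agent.Lib.Helper50Aut Cfsg.Agent.Lib.Helper50AutStr
  Cfsg.Agent.Lib.Helper42BalA Cfsg.Agent.Lib.Helper49EichGen Cfsg.Agent.Lib.Helper42LBDefs

variable {F : Type*} [Field F] [Fintype F] {n : ℕ}

local notation "SLn" => Matrix.SpecialLinearGroup (Fin n) F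
local notation "Mn" => Matrix (Fin n) (Fin n) F
local notation "π" => (QuotientGroup.mk : Matrix.SpecialLinearGroup (Fin n) F →
  Matrix.SpecialLinearGroup (Fin n) F ⧸ Subgroup.center (Matrix.SpecialLinearGroup (Fin n) F))
local notation "AutP" => MulAut (Matrix.ProjectiveSpecialLinearGroup (Fin n) F)

theorem sigma_sq {q₀ : ℕ} (hF : Fintype.card F = q₀ ^ 2) (σ : F ≃+* F) (hσ : ∀ a, σ a = a ^ q₀)
    (a : F) : σ (σ a) = a := by
  rw [hσ, hσ, ← pow_mul, ← sq, ← hF, FiniteField.pow_card]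

/-- `s ∈ SU` iff `s` is fixed by `σ ∘ (inverse transpose)` -/
theorem mem_SU_iff_fix {q₀ : ℕ} (hF : Fintype.card F = q₀ ^ 2) (σ : F ≃+* F)
    (hσ : ∀ a, σ a = a ^ q₀) (s : SLn) :
    s ∈ Cfsg.SU n F q₀ ↔ mapEquiv σ (invT s) = s := by
  rw [Cfsg.Agent.Lib.Helper7SU.mem_SU_iff hF]
  unfold Cfsg.Agent.Lib.Helper7GU.IsU
  have hmap : (s.1 : Mn).map (fun x => x ^ q₀) = (s : Mn).map σ := by
    ext i j; simp [hσ]
  rw [hmap]
  have h1 : ((s⁻¹ : SLn) : Mn) * (s : Mn) = 1 := by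
    rw [← Matrix.SpecialLinearGroup.coe_mul, inv_mul_cancel, Matrix.SpecialLinearGroup.coe_one]
  have h2 : (s : Mn) * ((s⁻¹ : SLn) : Mn) = 1 := by
    rw [← Matrix.SpecialLinearGroup.coe_mul, mul_inv_cancel, Matrix.SpecialLinearGroup.coe_one]
  have h1t : (s : Mn)ᵀ * ((s⁻¹ : SLn) : Mn)ᵀ = 1 := by
    rw [← Matrix.transpose_mul, h1, Matrix.transpose_one]
  have h2t : ((s⁻¹ : SLn) : Mn)ᵀ * (s : Mn)ᵀ = 1 := by
    rw [← Matrix.transpose_mul, h2, Matrix.transpose_one]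
  have hss : ∀ M : Mn, (M.map σ).map σ = M := by
    intro M; ext i j; simp [sigma_sq hF σ hσ]
  constructor
  · intro h
    have h3 : (s : Mn).map σ = ((s⁻¹ : SLn) : Mn)ᵀ := by
      calc (s : Mn).map σ = (((s⁻¹ : SLn) : Mn)ᵀ * (s : Mn)ᵀ) * (s : Mn).map σ := by
            rw [h2t, one_mul]
        _ = ((s⁻¹ : SLn) : Mn)ᵀ := by rw [mul_assoc, h, mul_one]
    apply Subtype.ext
    show (mapEquiv σ (invT s) : Mn) = (s : Mn)
    rw [mapEquiv_coe, invT_coe, ← h3, hss]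
  · intro h
    have h3 : (((s⁻¹ : SLn) : Mn)ᵀ).map σ = (s : Mn) := by
      have := congrArg (fun t : SLn => (t : Mn)) h
      simpa only [mapEquiv_coe, invT_coe] using this
    have h4 : (s : Mn).map σ = ((s⁻¹ : SLn) : Mn)ᵀ := by
      rw [← h3, hss]
    show (s : Mn)ᵀ * (s : Mn).map σ = 1
    rw [h4, h1t]

theorem apply_mk (σ : F ≃+* F) (s : SLn) :
    (fHom σ * iota : AutP) (π s) = π (mapEquiv σ (invT s)) := rfl

/-- piece U1 (two statements) -/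
theorem uni_H2 {q₀ : ℕ} (hF : Fintype.card F = q₀ ^ 2) (σ : F ≃+* F) (hσ : ∀ a, σ a = a ^ q₀)
    (s : SLn) (hs : s ∈ Cfsg.SU n F q₀) : (fHom σ * iota : AutP) (π s) = π s := by
  rw [apply_mk, (mem_SU_iff_fix hF σ hσ s).1 hs]

theorem uni_H4 {q₀ : ℕ} (hF : Fintype.card F = q₀ ^ 2) (σ : F ≃+* F) (hσ : ∀ a, σ a = a ^ q₀)
    (k : Matrix.ProjectiveSpecialLinearGroup (Fin n) F) (hk : (fHom σ * iota : AutP) k = k)
    (s : SLn) (hs : s ∈ Cfsg.SU n F q₀) :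
    ∃ t ∈ Cfsg.SU n F q₀, k * π s * k⁻¹ * (π s)⁻¹ = π t := by
  obtain ⟨x, rfl⟩ := QuotientGroup.mk_surjective k
  rw [apply_mk] at hk
  have hz : x⁻¹ * mapEquiv σ (invT x) ∈ Subgroup.center SLn := QuotientGroup.eq.1 hk.symm
  set z := x⁻¹ * mapEquiv σ (invT x) with hzdef
  have hx : mapEquiv σ (invT x) = x * z := by rw [hzdef]; group
  have hzc : ∀ y : SLn, y * z = z * y := fun y => Subgroup.mem_center_iff.1 hz y
  refine ⟨x * s * x⁻¹ * s⁻¹, ?_, rfl⟩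
  rw [mem_SU_iff_fix hF σ hσ]
  have hs' := (mem_SU_iff_fix hF σ hσ s).1 hs
  simp only [map_mul, map_inv, hx, hs']
  calc x * z * s * (x * z)⁻¹ * s⁻¹ = x * (z * s) * z⁻¹ * x⁻¹ * s⁻¹ := by group
    _ = x * (s * z) * z⁻¹ * x⁻¹ * s⁻¹ := by rw [hzc s]
    _ = x * s * x⁻¹ * s⁻¹ := by group

end Cfsg.Agent.Lib.Helper6LBU1
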