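import Mathlib
import Cfsg.Prelude
import Cfsg.Agent.Lib.Helper42LBDefs
import Cfsg.Agent.Lib.Helper45SU
import Cfsg.Agent.S0283

set_option autoImplicit false

/-! PROJECT 42, piece U2: `uni_H3`, `uni_ne`. -/

namespace Cfsg.Agent.Lib.Helper6LBU2

open Matrix Cfsg Cfsg.Agent.Lib.Helper50Aut Cfsg.Agent.Lib.Helper50AutStr
  Cfsg.Agent.Lib.Helper42BalA Cfsg.Agent.Lib.Helper49EichGen Cfsg.Agent.Lib.Helper42LBDefs

variable {F : Type*} [Field F] {n : ℕ}

local notation "SLn" => Matrix.SpecialLinearGroup (Fin n) F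
local notation "Mn" => Matrix (Fin n) (Fin n) F
local notation "π" => (QuotientGroup.mk : Matrix.SpecialLinearGroup (Fin n) F →
  Matrix.SpecialLinearGroup (Fin n) F ⧸ Subgroup.center (Matrix.SpecialLinearGroup (Fin n) F))
local notation "AutP" => MulAut (Matrix.ProjectiveSpecialLinearGroup (Fin n) F)

/-- the diagonal `(-1,-1,1,…,1)` -/
def dd (F : Type*) [Field F] (n : ℕ) (hn : 3 ≤ n) : Fin n → F :=
  fun k => if k = ⟨0, by omega⟩ ∨ k = ⟨1, by omega⟩ then -1 else 1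

theorem dd_sq (hn : 3 ≤ n) (k : Fin n) : dd F n hn k * dd F n hn k = 1 := by
  unfold dd
  split_ifs <;> ring

theorem prod_dd (hn : 3 ≤ n) : ∏ k, dd F n hn k = 1 := by
  classical
  unfold dd
  have h01 : (⟨0, by omega⟩ : Fin n) ≠ ⟨1, by omega⟩ := by
    intro h; simpa using congrArg Fin.val h
  have : ∀ k : Fin n, (if k = ⟨0, by omega⟩ ∨ k = ⟨1, by omega⟩ then (-1 : F) else 1) =
      (if k = ⟨0, by omega⟩ then (-1 : F) else 1) * (if k = ⟨1, by omega⟩ then (-1 : F) else 1) := by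
    intro k
    by_cases h0 : k = ⟨0, by omega⟩
    · subst h0
      simp [h01]
    · by_cases h1 : k = ⟨1, by omega⟩
      · subst h1
        simp [h01.symm]
      · simp [h0, h1]
  simp_rw [this]
  rw [Finset.prod_mul_distrib, Finset.prod_ite_eq' , Finset.prod_ite_eq']
  simp

/-- `t₀ = diag(-1,-1,1,…,1)` -/
def t0 (F : Type*) [Field F] (n : ℕ) (hn : 3 ≤ n) : Matrix.SpecialLinearGroup (Fin n) F :=
  ⟨Matrix.diagonal (dd F n hn), by rw [Matrix.det_diagonal, prod_dd]⟩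

theorem t0_mul_self (hn : 3 ≤ n) : t0 F n hn * t0 F n hn = 1 := by
  apply Subtype.ext
  show Matrix.diagonal (dd F n hn) * Matrix.diagonal (dd F n hn) = 1
  rw [Matrix.diagonal_mul_diagonal, ← Matrix.diagonal_one]
  congr 1
  ext k
  exact dd_sq hn k

theorem mk_eq_one_of_scalar (s : SLn) (μ : F) (h : (s : Mn) = μ • 1) : π s = 1 := by
  rw [QuotientGroup.eq_one_iff, Subgroup.mem_center_iff]
  intro y
  apply Subtype.ext
  show (y : Mn) * (s : Mn) = (s : Mn) * (y : Mn)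
  rw [h]
  simp

theorem t0_not_central (hn : 3 ≤ n) (h2 : (2 : F) ≠ 0) : π (t0 F n hn) ≠ 1 := by
  intro h
  rw [QuotientGroup.eq_one_iff, Matrix.SpecialLinearGroup.mem_center_iff] at h
  obtain ⟨r, -, hr⟩ := h
  have e0 := congrFun (congrFun hr ⟨0, by omega⟩) ⟨0, by omega⟩
  have e2 := congrFun (congrFun hr ⟨2, by omega⟩) ⟨2, by omega⟩
  have d0 : (t0 F n hn : Mn) ⟨0, by omega⟩ ⟨0, by omega⟩ = -1 := by
    show Matrix.diagonal (dd F n hn) _ _ = -1
    rw [Matrix.diagonal_apply_eq]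
    simp [dd]
  have d2 : (t0 F n hn : Mn) ⟨2, by omega⟩ ⟨2, by omega⟩ = 1 := by
    show Matrix.diagonal (dd F n hn) _ _ = 1
    rw [Matrix.diagonal_apply_eq]
    simp [dd]
  rw [d0] at e0
  rw [d2] at e2
  simp only [Matrix.scalar_apply, Matrix.diagonal_apply_eq] at e0 e2
  apply h2
  linear_combination e0 - e2

theorem orderOf_t0 (hn : 3 ≤ n) (h2 : (2 : F) ≠ 0) : orderOf (π (t0 F n hn)) = 2 := by
  apply orderOf_eq_prime
  · rw [sq, ← QuotientGroup.mk_mul, t0_mul_self]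
    rfl
  · exact t0_not_central hn h2

variable [Fintype F]

theorem t0_mem {q₀ : ℕ} (hn : 3 ≤ n) (hF : Fintype.card F = q₀ ^ 2) :
    t0 F n hn ∈ Cfsg.SU n F q₀ := by
  rw [Cfsg.Agent.Lib.Helper7SU.mem_SU_iff hF]
  have hq : q₀ ≠ 0 := by
    rintro rfl
    have := Fintype.card_pos (α := F)
    rw [hF] at this
    norm_num at this
  apply Cfsg.Agent.Lib.Helper7SUCenter.isU_diagonal hq
  intro k
  unfold dd
  split_ifs
  · exact Cfsg.Agent.Lib.Helper7SUCenter.neg_one_pow_q_succ hF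
  · exact one_pow _

theorem uni_H3 (hn : 3 ≤ n) (h2 : (2 : F) ≠ 0) {q₀ : ℕ} (hF : Fintype.card F = q₀ ^ 2)
    (N : Subgroup ↥(Cfsg.SU n F q₀)) (hN : N.Normal) :
    (∀ x ∈ N, π (x : SLn) = 1) ∨ ∃ t ∈ N, orderOf (π (t : SLn)) = 2 := by
  have hq2 : ¬ (n = 3 ∧ q₀ = 2) := by
    rintro ⟨-, rfl⟩
    apply h2
    have h4 : ((Fintype.card F : ℕ) : F) = 0 := Nat.cast_card_eq_zero F
    rw [hF] at h4
    have h5 : (2 : F) * 2 = 0 := by
      have : (((2 : ℕ) ^ 2 : ℕ) : F) = 2 * 2 := by norm_num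
      rw [← this]; exact h4
    exact (mul_eq_zero.1 h5).elim id id
  have hs := Cfsg.Agent.S0283.result hF n hn hq2
  have hcen : ∀ z : ↥(Cfsg.SU n F q₀), z ∈ Subgroup.center ↥(Cfsg.SU n F q₀) →
      π (z : SLn) = 1 := by
    intro z hz
    obtain ⟨μ, hμ⟩ := (Cfsg.Agent.Lib.Helper45SU.mem_center_iff hF (by omega) z).1 hz
    exact mk_eq_one_of_scalar _ μ hμ
  have hN' : (N.map (QuotientGroup.mk' (Subgroup.center ↥(Cfsg.SU n F q₀)))).Normal :=
    hN.map _ (QuotientGroup.mk'_surjective _)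
  rcases hN'.eq_bot_or_eq_top with h | h
  · left
    intro x hx
    apply hcen
    have h1 : QuotientGroup.mk' (Subgroup.center ↥(Cfsg.SU n F q₀)) x ∈
        N.map (QuotientGroup.mk' (Subgroup.center ↥(Cfsg.SU n F q₀))) :=
      Subgroup.mem_map_of_mem _ hx
    rw [h, Subgroup.mem_bot] at h1
    exact (QuotientGroup.eq_one_iff x).1 h1
  · right
    have h1 : QuotientGroup.mk' (Subgroup.center ↥(Cfsg.SU n F q₀)) ⟨t0 F n hn, t0_mem hn hF⟩ ∈
        N.map (QuotientGroup.mk' (Subgroup.center ↥(Cfsg.SU n F q₀))) := by rw [h]; trivial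
    obtain ⟨x, hx, e⟩ := h1
    refine ⟨x, hx, ?_⟩
    have h3 : x⁻¹ * ⟨t0 F n hn, t0_mem hn hF⟩ ∈ Subgroup.center ↥(Cfsg.SU n F q₀) :=
      QuotientGroup.eq.1 e
    have h4 := hcen _ h3
    have h5 : π (t0 F n hn) = π (x : SLn) := by
      have h6 : t0 F n hn = (x : SLn) *
          ((x⁻¹ * ⟨t0 F n hn, t0_mem hn hF⟩ : ↥(Cfsg.SU n F q₀)) : SLn) := by
        show t0 F n hn = (x : SLn) * ((x : SLn)⁻¹ * t0 F n hn)
        group
      rw [h6, QuotientGroup.mk_mul, h4, mul_one]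
    rw [← h5]
    exact orderOf_t0 hn h2

theorem uni_ne (hn : 3 ≤ n) (h2 : (2 : F) ≠ 0) {q₀ : ℕ} (hF : Fintype.card F = q₀ ^ 2) :
    ∃ s ∈ Cfsg.SU n F q₀, π s ≠ 1 :=
  ⟨t0 F n hn, t0_mem hn hF, t0_not_central hn h2⟩

end Cfsg.Agent.Lib.Helper6LBU2
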