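import Mathlib
import Cfsg.Prelude
import Cfsg.Agent.Lib.Helper42LBDefs
import Cfsg.Agent.S0249

set_option autoImplicit false

/-! PROJECT 42, piece F1 (helper70). -/

namespace Cfsg.Agent.Lib.Helper70LBF1

open Matrix Cfsg Cfsg.Agent.Lib.Helper50Aut Cfsg.Agent.Lib.Helper50AutStr
  Cfsg.Agent.Lib.Helper42BalA Cfsg.Agent.Lib.Helper49EichGen Cfsg.Agent.Lib.Helper42LBDefs

variable {F : Type*} [Field F] [Fintype F] {n : ℕ}

local notation "SLn" => Matrix.SpecialLinearGroup (Fin n) F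
local notation "Mn" => Matrix (Fin n) (Fin n) F
local notation "π" => (QuotientGroup.mk : Matrix.SpecialLinearGroup (Fin n) F →
  Matrix.SpecialLinearGroup (Fin n) F ⧸ Subgroup.center (Matrix.SpecialLinearGroup (Fin n) F))
local notation "AutP" => MulAut (Matrix.ProjectiveSpecialLinearGroup (Fin n) F)

/-- the fixed field -/
abbrev F0 (σ : F ≃+* F) : Subfield F := RingHom.eqLocusField (σ : F →+* F) (RingHom.id F)

theorem mem_F0 (σ : F ≃+* F) (a : F) : a ∈ F0 σ ↔ σ a = a := Iff.rfl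

/-- the inclusion `SL_n(F₀) → SL_n(F)` -/
noncomputable def jj (σ : F ≃+* F) : Matrix.SpecialLinearGroup (Fin n) (F0 σ) →* SLn :=
  Matrix.SpecialLinearGroup.map (F0 σ).subtype

theorem jj_apply (σ : F ≃+* F) (s : Matrix.SpecialLinearGroup (Fin n) (F0 σ)) (a b : Fin n) :
    (jj σ s : Mn) a b = ((s : Matrix (Fin n) (Fin n) (F0 σ)) a b : F) := rfl

theorem jj_mem (σ : F ≃+* F) (s : Matrix.SpecialLinearGroup (Fin n) (F0 σ)) : jj σ s ∈ fixS σ := by
  rw [mem_fixS]
  apply Subtype.ext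
  ext a b
  rw [mapEquiv_coe, Matrix.map_apply, jj_apply]
  exact ((s : Matrix (Fin n) (Fin n) (F0 σ)) a b).2

theorem jj_surj (σ : F ≃+* F) (s : SLn) (hs : s ∈ fixS σ) : ∃ s', jj σ s' = s := by
  have h1 : ∀ a b, (s : Mn) a b ∈ F0 σ := by
    intro a b
    have := congrArg (fun t : SLn => (t : Mn) a b) (mem_fixS.1 hs)
    simpa [mapEquiv_coe] using this
  let M : Matrix (Fin n) (Fin n) (F0 σ) := fun a b => ⟨(s : Mn) a b, h1 a b⟩
  have hM : M.map (F0 σ).subtype = (s : Mn) := by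
    ext a b; rfl
  have hdet : M.det = 1 := by
    apply (F0 σ).subtype_injective
    have := RingHom.map_det (F0 σ).subtype M
    rw [this, map_one]
    have h2 : (F0 σ).subtype.mapMatrix M = (s : Mn) := hM
    rw [h2]
    exact s.2
  exact ⟨⟨M, hdet⟩, Subtype.ext hM⟩

theorem jj_center (σ : F ≃+* F) (c : Matrix.SpecialLinearGroup (Fin n) (F0 σ))
    (hc : c ∈ Subgroup.center (Matrix.SpecialLinearGroup (Fin n) (F0 σ))) :
    jj σ c ∈ Subgroup.center SLn := by
  rw [Matrix.SpecialLinearGroup.mem_center_iff] at hc ⊢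
  obtain ⟨r, hr, hrc⟩ := hc
  refine ⟨(r : F), ?_, ?_⟩
  · have := congrArg (fun x : F0 σ => (x : F)) hr
    simpa using this
  · ext a b
    rw [jj_apply, ← hrc]
    by_cases hab : a = b
    · subst hab; simp
    · simp [hab]

/-- piece F1 -/
theorem fix_H3_big (hn : 2 ≤ n) (σ : F ≃+* F) (hbig : n = 2 → 4 ≤ Nat.card {a : F // σ a = a})
    (p : ℕ) (t₀ : SLn) (ht₀ : t₀ ∈ fixS σ) (ho : orderOf (π t₀) = p)
    (N : Subgroup ↥(fixS (n := n) σ)) (hN : N.Normal) :
    (∀ x ∈ N, π (x : SLn) = 1) ∨ ∃ t ∈ N, orderOf (π (t : SLn)) = p := by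
  have hs : IsSimpleGroup (Matrix.ProjectiveSpecialLinearGroup (Fin n) (F0 σ)) := by
    rcases Nat.lt_or_ge 2 n with h3 | h3
    · exact Cfsg.Agent.S0249.result n h3
    · have h2 : n = 2 := by omega
      subst h2
      exact Matrix.ProjectiveSpecialLinearGroup.rank_two_simple (hbig rfl)
  let j' : Matrix.SpecialLinearGroup (Fin n) (F0 σ) →* ↥(fixS (n := n) σ) :=
    (jj σ).codRestrict (fixS σ) (jj_mem σ)
  have hj' : Function.Surjective j' := by
    rintro ⟨s, hs⟩
    obtain ⟨s', h⟩ := jj_surj σ s hs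
    exact ⟨s', Subtype.ext h⟩
  set N' := N.comap j' with hN'def
  have hN'n : N'.Normal := hN.comap j'
  have hN' : (N'.map (QuotientGroup.mk' (Subgroup.center
      (Matrix.SpecialLinearGroup (Fin n) (F0 σ))))).Normal :=
    hN'n.map _ (QuotientGroup.mk'_surjective _)
  rcases hN'.eq_bot_or_eq_top with h | h
  · left
    intro x hx
    obtain ⟨x', rfl⟩ := hj' x
    have h1 : QuotientGroup.mk' (Subgroup.center (Matrix.SpecialLinearGroup (Fin n) (F0 σ))) x' ∈
        N'.map (QuotientGroup.mk' (Subgroup.center (Matrix.SpecialLinearGroup (Fin n) (F0 σ)))) :=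
      Subgroup.mem_map_of_mem _ hx
    rw [h, Subgroup.mem_bot] at h1
    have h2 := (QuotientGroup.eq_one_iff x').1 h1
    exact (QuotientGroup.eq_one_iff _).2 (jj_center σ x' h2)
  · right
    obtain ⟨t₀', ht₀'⟩ := jj_surj σ t₀ ht₀
    have h1 : QuotientGroup.mk' (Subgroup.center (Matrix.SpecialLinearGroup (Fin n) (F0 σ))) t₀' ∈
        N'.map (QuotientGroup.mk' (Subgroup.center (Matrix.SpecialLinearGroup (Fin n) (F0 σ)))) := by
      rw [h]; trivial
    obtain ⟨x', hx', e⟩ := h1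
    refine ⟨j' x', hx', ?_⟩
    have h2 : x'⁻¹ * t₀' ∈ Subgroup.center (Matrix.SpecialLinearGroup (Fin n) (F0 σ)) :=
      QuotientGroup.eq.1 e
    have h3 : π (jj σ x') = π t₀ := by
      rw [← ht₀']
      apply QuotientGroup.eq.2
      rw [← map_inv, ← map_mul]
      exact jj_center σ _ h2
    have h4 : ((j' x' : ↥(fixS (n := n) σ)) : SLn) = jj σ x' := rfl
    rw [h4, h3, ho]

end Cfsg.Agent.Lib.Helper70LBF1
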