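import Mathlib
import Cfsg.Prelude
import Cfsg.Agent.Lib.Helper42LBDefs

set_option autoImplicit false

/-! PROJECT 42, piece F4 (helper70). -/

namespace Cfsg.Agent.Lib.Helper70LBF4

open Matrix Cfsg Cfsg.Agent.Lib.Helper50Aut Cfsg.Agent.Lib.Helper50AutStr
  Cfsg.Agent.Lib.Helper42BalA Cfsg.Agent.Lib.Helper49EichGen Cfsg.Agent.Lib.Helper42LBDefs

variable {F : Type*} [Field F] [Fintype F] {n : ℕ}

local notation "SLn" => Matrix.SpecialLinearGroup (Fin n) F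
local notation "Mn" => Matrix (Fin n) (Fin n) F
local notation "π" => (QuotientGroup.mk : Matrix.SpecialLinearGroup (Fin n) F →
  Matrix.SpecialLinearGroup (Fin n) F ⧸ Subgroup.center (Matrix.SpecialLinearGroup (Fin n) F))
local notation "AutP" => MulAut (Matrix.ProjectiveSpecialLinearGroup (Fin n) F)

/-- piece F4 -/
theorem fix_H4 (hn : 2 ≤ n) (σ : F ≃+* F) (k : Matrix.ProjectiveSpecialLinearGroup (Fin n) F)
    (hk : (fHom σ : AutP) k = k) (s : SLn) (hs : s ∈ fixS σ) :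
    ∃ t ∈ fixS σ, k * π s * k⁻¹ * (π s)⁻¹ = π t := by
  obtain ⟨x, rfl⟩ := QuotientGroup.mk_surjective k
  rw [fHom_apply, liftAut_mk] at hk
  have hc : x⁻¹ * mapEquiv σ x ∈ Subgroup.center SLn := QuotientGroup.eq.1 hk.symm
  set c := x⁻¹ * mapEquiv σ x with hcdef
  have hx : mapEquiv σ x = x * c := by rw [hcdef]; group
  have hcs : c * s = s * c := ((Subgroup.mem_center_iff.1 hc) s).symm
  refine ⟨x * s * x⁻¹ * s⁻¹, ?_, rfl⟩
  rw [mem_fixS, map_mul, map_mul, map_mul, map_inv, map_inv, mem_fixS.1 hs, hx]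
  calc x * c * s * (x * c)⁻¹ * s⁻¹ = x * (c * s) * c⁻¹ * x⁻¹ * s⁻¹ := by group
    _ = x * s * x⁻¹ * s⁻¹ := by rw [hcs]; group

end Cfsg.Agent.Lib.Helper70LBF4
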