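import Mathlib
import Cfsg.Prelude
import Cfsg.Agent.Lib.Helper42LBDefs
import Cfsg.Agent.Lib.Helper50Cent

set_option autoImplicit false

/-! PROJECT 42, piece F3 (`fix_t0`) (helper72). -/

namespace Cfsg.Agent.Lib.Helper72LBF3

open Matrix Cfsg Cfsg.Agent.Lib.Helper50Aut Cfsg.Agent.Lib.Helper50AutStr
  Cfsg.Agent.Lib.Helper42BalA Cfsg.Agent.Lib.Helper49EichGen Cfsg.Agent.Lib.Helper42LBDefs

variable {F : Type*} [Field F] [Fintype F] {n : ℕ}

local notation "SLn" => Matrix.SpecialLinearGroup (Fin n) F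
local notation "Mn" => Matrix (Fin n) (Fin n) F
local notation "π" => (QuotientGroup.mk : Matrix.SpecialLinearGroup (Fin n) F →
  Matrix.SpecialLinearGroup (Fin n) F ⧸ Subgroup.center (Matrix.SpecialLinearGroup (Fin n) F))
local notation "AutP" => MulAut (Matrix.ProjectiveSpecialLinearGroup (Fin n) F)

omit [Fintype F] in
/-- the units fixed by `σ` -/
def fixU (σ : F ≃+* F) : Subgroup Fˣ where
  carrier := {u | σ (u : F) = u}
  mul_mem' := by
    intro a b ha hb
    show σ ((a * b : Fˣ) : F) = ((a * b : Fˣ) : F)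
    have ha' : σ (a : F) = a := ha
    have hb' : σ (b : F) = b := hb
    rw [Units.val_mul, map_mul, ha', hb']
  one_mem' := by
    show σ ((1 : Fˣ) : F) = ((1 : Fˣ) : F)
    simp
  inv_mem' := by
    intro a ha
    show σ ((a⁻¹ : Fˣ) : F) = ((a⁻¹ : Fˣ) : F)
    have ha' : σ (a : F) = a := ha
    rw [Units.val_inv_eq_inv_val, map_inv₀, ha']

omit [Fintype F] in
theorem orderOf_mk_eq (p : ℕ) [Fact p.Prime] (t : SLn) (h1 : t ^ p ∈ Subgroup.center SLn)
    (h2 : t ∉ Subgroup.center SLn) : orderOf (π t) = p := by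
  apply orderOf_eq_prime
  · rw [← QuotientGroup.mk_pow]
    exact (QuotientGroup.eq_one_iff _).2 h1
  · intro h
    exact h2 ((QuotientGroup.eq_one_iff _).1 h)

omit [Fintype F] in
/-- case `p ∤ q₀ - 1` -/
theorem case_coprime (σ : F ≃+* F) (p : ℕ) (x : SLn) (hx : orderOf (π x) = p)
    (μ : F) (hμ : μ ≠ 0) (e : (μ • (x : Mn)).map σ = μ • (x : Mn))
    (hpm : Nat.Coprime p (Nat.card ↥(fixU σ))) :
    ∃ t₀ : SLn, t₀ ∈ fixS σ ∧ orderOf (π t₀) = p := by
  classical
  obtain ⟨m, hm⟩ : ∃ m, m = Nat.card ↥(fixU σ) := ⟨_, rfl⟩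
  rw [← hm] at hpm
  have hdet : (μ • (x : Mn)).det = μ ^ n := by
    rw [Matrix.det_smul, x.2, mul_one, Fintype.card_fin]
  have hfix : σ (μ ^ n) = μ ^ n := by
    rw [← hdet]
    have := RingHom.map_det (σ : F →+* F) (μ • (x : Mn))
    rw [RingHom.mapMatrix_apply] at this
    have h2 : (μ • (x : Mn)).map (σ : F →+* F) = (μ • (x : Mn)).map σ := rfl
    rw [h2, e] at this
    exact this
  have hd1 : (μ ^ n) ^ m = 1 := by
    have hne : μ ^ n ≠ 0 := pow_ne_zero _ hμ
    have hmem : Units.mk0 (μ ^ n) hne ∈ fixU σ := hfix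
    have := pow_card_eq_one' (G := ↥(fixU σ)) (x := ⟨_, hmem⟩)
    rw [← hm] at this
    have h3 := congrArg (fun u : ↥(fixU σ) => ((u : Fˣ) : F)) this
    simpa using h3
  have hc1 : (Matrix.scalar (Fin n) (μ ^ m)).det = 1 := by
    rw [Matrix.scalar_apply, Matrix.det_diagonal, Finset.prod_const, Finset.card_univ,
      Fintype.card_fin, ← pow_mul, mul_comm, pow_mul, hd1]
  let c : SLn := ⟨Matrix.scalar (Fin n) (μ ^ m), hc1⟩
  have hcc : c ∈ Subgroup.center SLn := by
    rw [Matrix.SpecialLinearGroup.mem_center_iff]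
    refine ⟨μ ^ m, ?_, rfl⟩
    rw [Fintype.card_fin, ← pow_mul, mul_comm, pow_mul, hd1]
  have hcoe : ((c * x ^ m : SLn) : Mn) = (μ • (x : Mn)) ^ m := by
    rw [Matrix.SpecialLinearGroup.coe_mul, Matrix.SpecialLinearGroup.coe_pow, smul_pow]
    show Matrix.scalar (Fin n) (μ ^ m) * (x : Mn) ^ m = _
    rw [Matrix.scalar_apply, ← Matrix.smul_eq_diagonal_mul]
  refine ⟨c * x ^ m, ?_, ?_⟩
  · rw [mem_fixS]
    apply Subtype.ext
    rw [mapEquiv_coe, hcoe]
    have h4 := map_pow (RingHom.mapMatrix (m := Fin n) (σ : F →+* F)) (μ • (x : Mn)) m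
    rw [RingHom.mapMatrix_apply, RingHom.mapMatrix_apply] at h4
    have h5 : (μ • (x : Mn)).map (σ : F →+* F) = μ • (x : Mn) := e
    rw [h5] at h4
    exact h4
  · have h6 : π (c * x ^ m) = (π x) ^ m := by
      rw [QuotientGroup.mk_mul, (QuotientGroup.eq_one_iff c).2 hcc, one_mul, QuotientGroup.mk_pow]
    rw [h6, Nat.Coprime.orderOf_pow (by rw [hx]; exact hpm), hx]

omit [Fintype F] in
/-- case `p ∣ q₀ - 1`, `(n, p) ≠ (2, 2)` -/
theorem case_diag (hn : 2 ≤ n) (σ : F ≃+* F) (p : ℕ) [Fact p.Prime] (ζ : F) (hζ0 : ζ ≠ 0)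
    (hζσ : σ ζ = ζ) (hζp : ζ ^ p = 1) (hζ1 : ζ ≠ 1) (hnp : 3 ≤ n ∨ ζ * ζ ≠ 1) :
    ∃ t₀ : SLn, t₀ ∈ fixS σ ∧ orderOf (π t₀) = p := by
  classical
  let d : Fin n → F := fun i => if (i : ℕ) = 0 then ζ else if (i : ℕ) = 1 then ζ⁻¹ else 1
  have hdet : (Matrix.diagonal d).det = 1 := by
    rw [Matrix.det_diagonal]
    rw [Finset.prod_eq_mul (⟨0, by omega⟩ : Fin n) (⟨1, by omega⟩ : Fin n)]
    · simp [d, hζ0]
    · intro h
      simpa using congrArg Fin.val h
    · intro c _ hc
      have h0 : (c : ℕ) ≠ 0 := fun h => hc.1 (Fin.ext h)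
      have h1 : (c : ℕ) ≠ 1 := fun h => hc.2 (Fin.ext h)
      simp [d, h0, h1]
    · intro h; exact absurd (Finset.mem_univ _) h
    · intro h; exact absurd (Finset.mem_univ _) h
  let t : SLn := ⟨Matrix.diagonal d, hdet⟩
  refine ⟨t, ?_, ?_⟩
  · rw [mem_fixS]
    apply Subtype.ext
    rw [mapEquiv_coe]
    show (Matrix.diagonal d).map σ = Matrix.diagonal d
    rw [Matrix.diagonal_map (map_zero σ)]
    congr 1
    funext i
    simp only [d]
    split_ifs
    · exact hζσ
    · rw [map_inv₀, hζσ]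
    · exact map_one σ
  · apply orderOf_mk_eq
    · have : t ^ p = 1 := by
        apply Subtype.ext
        rw [Matrix.SpecialLinearGroup.coe_pow, Matrix.SpecialLinearGroup.coe_one]
        show (Matrix.diagonal d) ^ p = 1
        rw [Matrix.diagonal_pow, ← Matrix.diagonal_one]
        congr 1
        funext i
        simp only [d, Pi.pow_apply]
        split_ifs
        · exact hζp
        · rw [inv_pow, hζp, inv_one]
        · exact one_pow _
      rw [this]
      exact one_mem _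
    · intro hc
      rw [Matrix.SpecialLinearGroup.mem_center_iff] at hc
      obtain ⟨r, -, hr⟩ := hc
      have hr' : Matrix.scalar (Fin n) r = Matrix.diagonal d := hr
      have h0 : r = ζ := by
        have := congrFun (congrFun hr' ⟨0, by omega⟩) ⟨0, by omega⟩
        simpa [d, Matrix.scalar_apply] using this
      have h1 : r = ζ⁻¹ := by
        have := congrFun (congrFun hr' ⟨1, by omega⟩) ⟨1, by omega⟩
        simpa [d, Matrix.scalar_apply] using this
      rcases hnp with h3 | h3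
      · have h2 : r = 1 := by
          have := congrFun (congrFun hr' ⟨2, by omega⟩) ⟨2, by omega⟩
          simpa [d, Matrix.scalar_apply] using this
        exact hζ1 (h0.symm.trans h2)
      · apply h3
        have : ζ = ζ⁻¹ := h0.symm.trans h1
        calc ζ * ζ = ζ * ζ⁻¹ := by rw [← this]
          _ = 1 := mul_inv_cancel₀ hζ0

omit [Fintype F] in
/-- case `n = 2`, `p = 2` -/
theorem case_two (σ : F ≃+* F) :
    ∃ t₀ : Matrix.SpecialLinearGroup (Fin 2) F, t₀ ∈ fixS σ ∧
      orderOf (QuotientGroup.mk t₀ : Matrix.SpecialLinearGroup (Fin 2) F ⧸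
        Subgroup.center (Matrix.SpecialLinearGroup (Fin 2) F)) = 2 := by
  classical
  have hdet : (!![0, 1; -1, 0] : Matrix (Fin 2) (Fin 2) F).det = 1 := by
    simp [Matrix.det_fin_two]
  let t : Matrix.SpecialLinearGroup (Fin 2) F := ⟨!![0, 1; -1, 0], hdet⟩
  have : Fact (Nat.Prime 2) := ⟨Nat.prime_two⟩
  refine ⟨t, ?_, ?_⟩
  · rw [mem_fixS]
    apply Subtype.ext
    rw [mapEquiv_coe]
    show (!![0, 1; -1, 0] : Matrix (Fin 2) (Fin 2) F).map σ = !![0, 1; -1, 0]
    ext i j
    fin_cases i <;> fin_cases j <;> simp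
  · apply orderOf_mk_eq
    · rw [Matrix.SpecialLinearGroup.mem_center_iff]
      refine ⟨-1, by simp, ?_⟩
      rw [Matrix.SpecialLinearGroup.coe_pow]
      show _ = (!![0, 1; -1, 0] : Matrix (Fin 2) (Fin 2) F) ^ 2
      rw [pow_two]
      ext i j
      fin_cases i <;> fin_cases j <;> simp [Matrix.scalar_apply]
    · intro hc
      rw [Matrix.SpecialLinearGroup.mem_center_iff] at hc
      obtain ⟨r, -, hr⟩ := hc
      have hr' : Matrix.scalar (Fin 2) r = !![0, 1; -1, 0] := hr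
      have := congrFun (congrFun hr' 0) 1
      simp [Matrix.scalar_apply] at this

/-- piece F3 -/
theorem fix_t0 (hn : 2 ≤ n) (σ : F ≃+* F) (p : ℕ) [Fact p.Prime]
    (hp : ¬ Nat.Coprime p (Nat.card ↥(MonoidHom.eqLocus (fHom σ : AutP).toMonoidHom
      (MonoidHom.id (Matrix.ProjectiveSpecialLinearGroup (Fin n) F))))) :
    ∃ t₀ : SLn, t₀ ∈ fixS σ ∧ orderOf (π t₀) = p := by
  classical
  have hpp : p.Prime := Fact.out
  by_cases hpm : Nat.Coprime p (Nat.card ↥(fixU σ))
  · -- Cauchy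
    have hfin : Finite (Matrix.ProjectiveSpecialLinearGroup (Fin n) F) := by
      have : Finite SLn := Finite.of_injective (fun s : SLn => (s : Mn)) Subtype.val_injective
      exact Quotient.finite _
    have hdvd := (Nat.Prime.dvd_iff_not_coprime hpp).2 hp
    obtain ⟨k, hk⟩ := exists_prime_orderOf_dvd_card' p hdvd
    have hk' : orderOf (k : Matrix.ProjectiveSpecialLinearGroup (Fin n) F) = p := by
      rw [Subgroup.orderOf_coe, hk]
    have hkfix : (fHom σ : AutP) (k : Matrix.ProjectiveSpecialLinearGroup (Fin n) F) = k := k.2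
    obtain ⟨x, hx⟩ := QuotientGroup.mk_surjective
      (k : Matrix.ProjectiveSpecialLinearGroup (Fin n) F)
    rw [← hx] at hkfix hk'
    rw [fHom_apply, liftAut_mk] at hkfix
    have h1 : x⁻¹ * mapEquiv σ x ∈ Subgroup.center SLn := QuotientGroup.eq.1 hkfix.symm
    rw [Matrix.SpecialLinearGroup.mem_center_iff] at h1
    obtain ⟨z, -, hz⟩ := h1
    have h2 : (x : Mn).map σ = z • (x : Mn) := by
      have h3 : mapEquiv σ x = x * (x⁻¹ * mapEquiv σ x) := by group
      have h4 := congrArg (fun s : SLn => (s : Mn)) h3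
      rw [Matrix.SpecialLinearGroup.coe_mul x, ← hz, mapEquiv_coe] at h4
      rw [h4, Matrix.scalar_apply, ← Matrix.smul_eq_mul_diagonal]
    have hfinσ : Finite (F ≃+* F) :=
      Finite.of_injective (fun τ : F ≃+* F => (τ : F → F)) DFunLike.coe_injective
    obtain ⟨μ, hμ, e⟩ := Cfsg.Agent.Lib.Helper50Cent.exists_fixed_multiple (by omega) σ
      (orderOf σ) rfl (orderOf_pos σ) (Matrix.SpecialLinearGroup.toGL x) z h2
    exact case_coprime σ p x hk' μ hμ e hpm
  · have hdvd := (Nat.Prime.dvd_iff_not_coprime hpp).2 hpm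
    obtain ⟨u, hu⟩ := exists_prime_orderOf_dvd_card' p hdvd
    have hu' : orderOf ((u : Fˣ) : F) = p := by
      rw [orderOf_units, Subgroup.orderOf_coe, hu]
    have hζp : ((u : Fˣ) : F) ^ p = 1 := by rw [← hu']; exact pow_orderOf_eq_one _
    have hζ1 : ((u : Fˣ) : F) ≠ 1 := by
      intro h
      rw [h, orderOf_one] at hu'
      exact hpp.one_lt.ne hu'
    by_cases hnp : 3 ≤ n ∨ ((u : Fˣ) : F) * ((u : Fˣ) : F) ≠ 1
    · exact case_diag hn σ p _ (u : Fˣ).ne_zero u.2 hζp hζ1 hnp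
    · push Not at hnp
      obtain ⟨h3, h4⟩ := hnp
      have hn2 : n = 2 := by omega
      subst hn2
      have hp2 : p = 2 := by
        have : orderOf ((u : Fˣ) : F) ∣ 2 := orderOf_dvd_of_pow_eq_one (by rw [pow_two, h4])
        rw [hu'] at this
        exact (Nat.prime_dvd_prime_iff_eq hpp Nat.prime_two).1 this
      subst hp2
      exact case_two σ

end Cfsg.Agent.Lib.Helper72LBF3
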