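import Mathlib
import Cfsg.Prelude
import Cfsg.Agent.Lib.Helper42LBDefs

set_option autoImplicit false

/-! PROJECT 42, piece F5: automorphisms of `PSL_n(F)` centralising `PSL_n(F₀)`. (helper73) -/

namespace Cfsg.Agent.Lib.Helper73LBF5

open Matrix Cfsg Cfsg.Agent.Lib.Helper50Aut Cfsg.Agent.Lib.Helper50AutStr
  Cfsg.Agent.Lib.Helper42BalA Cfsg.Agent.Lib.Helper49EichGen Cfsg.Agent.Lib.Helper42LBDefs

variable {F : Type*} [Field F] [Fintype F] {n : ℕ}

local notation "SLn" => Matrix.SpecialLinearGroup (Fin n) F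
local notation "Mn" => Matrix (Fin n) (Fin n) F
local notation "tr" => Matrix.SpecialLinearGroup.transvection
local notation "π" => (QuotientGroup.mk : Matrix.SpecialLinearGroup (Fin n) F →
  Matrix.SpecialLinearGroup (Fin n) F ⧸ Subgroup.center (Matrix.SpecialLinearGroup (Fin n) F))
local notation "AutP" => MulAut (Matrix.ProjectiveSpecialLinearGroup (Fin n) F)

theorem mem_zpowers_of_fix (σ τ : F ≃+* F)
    (h : ∀ a, σ a = a → τ a = a) : τ ∈ Subgroup.zpowers σ := by
  have hfin : Finite (F ≃+* F) := Finite.of_injective (fun β : F ≃+* F => (β : F → F))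
    (fun a b h => RingEquiv.ext (congrFun h))
  let G := Subgroup.zpowers σ
  have hb := FixedPoints.toAlgHom_bijective G F
  let T : F →ₐ[FixedPoints.subfield G F] F :=
    { (τ : F →+* F) with
      commutes' := fun a => h a.1 (a.2 ⟨σ, Subgroup.mem_zpowers σ⟩) }
  obtain ⟨g, hg⟩ := hb.2 T
  have : τ = g.1 := by
    ext a
    have := congrArg (fun f : F →ₐ[FixedPoints.subfield G F] F => f a) hg
    exact this.symm
  rw [this]
  exact g.2

theorem tr_mem_fixS (σ : F ≃+* F) {i j : Fin n} (hij : i ≠ j) {a : F} (ha : σ a = a) :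
    tr hij a ∈ fixS σ := by
  rw [mem_fixS, mapEquiv_transvection, ha]

/-- the case without the graph automorphism -/
theorem case_one (hn : 2 ≤ n) (σ : F ≃+* F) (p : ℕ) (hσ : orderOf σ = p) (h : GL (Fin n) F)
    (τ : F ≃+* F) (hβ : ∀ s ∈ fixS σ, (cHom h * fHom τ : AutP) (π s) = π s) :
    (cHom h * fHom τ : AutP) ^ p = 1 := by
  have key : ∀ (i j : Fin n) (hij : i ≠ j) (a : F), σ a = a →
      (h : Mn) * Matrix.single i j (τ a) = Matrix.single i j a * (h : Mn) := by
    intro i j hij a ha
    apply single_eq_of_mk_eq h hij hij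
    have := hβ _ (tr_mem_fixS σ hij ha)
    simp only [MulAut.mul_apply, fHom_apply, cHom_apply, liftAut_mk,
      mapEquiv_transvection] at this
    exact this
  have hsc : (h : Mn) ∈ Set.range (Matrix.scalar (Fin n)) := by
    apply Matrix.mem_range_scalar_of_commute_single
    intro i j hij
    have := key i j hij 1 (map_one σ)
    rw [map_one] at this
    exact this.symm
  have hcen : h ∈ Subgroup.center (GL (Fin n) F) :=
    Matrix.GeneralLinearGroup.mem_center_iff_val_mem_range_scalar.2 hsc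
  obtain ⟨z, hz⟩ := hsc
  have hz0 : z ≠ 0 := by
    rintro rfl
    have h1 := gl_mul_inv h
    rw [← hz, map_zero, zero_mul] at h1
    have : Nontrivial (Fin n) := Fin.nontrivial_iff_two_le.2 hn
    have : Nonempty (Fin n) := inferInstance
    exact zero_ne_one h1
  have hτ : ∀ a, σ a = a → τ a = a := by
    intro a ha
    let i0 : Fin n := ⟨0, by omega⟩
    let i1 : Fin n := ⟨1, by omega⟩
    have h01 : i0 ≠ i1 := by simp [i0, i1]
    have := congrFun (congrFun (key i0 i1 h01 a ha) i0) i1
    rw [← hz] at this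
    simp only [Matrix.scalar_apply, Matrix.diagonal_mul, Matrix.mul_diagonal,
      Matrix.single_apply_same] at this
    have h2 : z * τ a = z * a := by rw [this, mul_comm]
    exact mul_left_cancel₀ hz0 h2
  obtain ⟨k, rfl⟩ := Subgroup.mem_zpowers_iff.1 (mem_zpowers_of_fix σ τ hτ)
  rw [cHom_eq_one_of_mem_center h hcen, one_mul, ← map_pow, ← zpow_natCast, ← _root_.zpow_mul,
    mul_comm, _root_.zpow_mul, zpow_natCast, ← hσ, pow_orderOf_eq_one, _root_.one_zpow, map_one]

/-- the case with the graph automorphism is impossible for `n ≥ 3` -/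
theorem case_two (hn : 3 ≤ n) (σ : F ≃+* F) (h : GL (Fin n) F)
    (τ : F ≃+* F) (hβ : ∀ s ∈ fixS σ, (cHom h * fHom τ * iota : AutP) (π s) = π s) : False := by
  let i0 : Fin n := ⟨0, by omega⟩
  let i1 : Fin n := ⟨1, by omega⟩
  let i2 : Fin n := ⟨2, by omega⟩
  have h01 : i0 ≠ i1 := by simp [i0, i1]
  have h02 : i0 ≠ i2 := by simp [i0, i2]
  have h12 : i1 ≠ i2 := by simp [i1, i2]
  have key : ∀ (j : Fin n) (hj : i0 ≠ j),
      (h : Mn) * Matrix.single j i0 (-1) = Matrix.single i0 j 1 * (h : Mn) := by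
    intro j hj
    apply single_eq_of_mk_eq h hj.symm hj
    have := hβ _ (tr_mem_fixS σ hj (map_one σ))
    simp only [MulAut.mul_apply, fHom_apply, cHom_apply, liftAut_mk, iota,
      mapEquiv_transvection, invT_transvection, map_one, map_neg] at this
    exact this
  -- rows `j ≠ i0` vanish outside the column `i0`
  have row : ∀ (j : Fin n) (hj : i0 ≠ j) (l : Fin n), l ≠ i0 → (h : Mn) j l = 0 := by
    intro j hj l hl
    have := congrFun (congrFun (key j hj) i0) l
    rw [Matrix.mul_single_apply_of_ne _ _ _ _ _ hl, Matrix.single_mul_apply_same, one_mul] at this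
    exact this.symm
  have e : ∀ (j : Fin n) (hj : i0 ≠ j) (k : Fin n),
      (h : Mn) j i0 * ((h⁻¹ : GL (Fin n) F) : Mn) i0 k = (1 : Mn) j k := by
    intro j hj k
    have h1 := congrFun (congrFun (gl_mul_inv h) j) k
    rw [Matrix.mul_apply, Finset.sum_eq_single i0] at h1
    · exact h1
    · intro l _ hl
      rw [row j hj l hl, zero_mul]
    · intro hh
      exact absurd (Finset.mem_univ _) hh
  have e11 := e i1 h01 i1
  have e21 := e i2 h02 i1
  have e22 := e i2 h02 i2
  rw [Matrix.one_apply_eq] at e11 e22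
  rw [Matrix.one_apply_ne h12.symm] at e21
  have h3 : (h : Mn) i2 i0 ≠ 0 := by
    intro h0
    rw [h0, zero_mul] at e22
    exact zero_ne_one e22
  have h4 : ((h⁻¹ : GL (Fin n) F) : Mn) i0 i1 = 0 := by
    rcases mul_eq_zero.mp e21 with h5 | h5
    · exact absurd h5 h3
    · exact h5
  rw [h4, mul_zero] at e11
  exact zero_ne_one e11

/-- piece F5 -/
theorem fix_H5 (hn : 2 ≤ n) (σ : F ≃+* F) (p : ℕ) (hσ : orderOf σ = p) (hp : p.Prime) (β : AutP)
    (hβ : ∀ s ∈ fixS σ, β (π s) = π s) : β ^ p = 1 := by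
  by_cases h3 : 3 ≤ n
  · obtain ⟨h, τ, e | e⟩ := aut_psl' hn β
    · subst e
      exact case_one hn σ p hσ h τ hβ
    · subst e
      exact (case_two h3 σ h τ hβ).elim
  · have h2 : n = 2 := by omega
    subst h2
    obtain ⟨h, τ, e⟩ := aut_psl_two β
    subst e
    exact case_one hn σ p hσ h τ hβ

end Cfsg.Agent.Lib.Helper73LBF5
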