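import Mathlib
import Cfsg.Prelude
import Cfsg.Agent.Lib.Helper42LBDefs

set_option autoImplicit false

/-! PROJECT 42, piece S2: automorphisms `c(h) f(τ)` of `PSL_n(F)` centralising the image of a
symplectic group are trivial. (helper73) -/

namespace Cfsg.Agent.Lib.Helper73LBS2

open Matrix Cfsg Cfsg.Agent.Lib.Helper50Aut Cfsg.Agent.Lib.Helper50AutStr
  Cfsg.Agent.Lib.Helper42BalA Cfsg.Agent.Lib.Helper49EichGen Cfsg.Agent.Lib.Helper42LBDefs
  Cfsg.Agent.Lib.Helper50Tv Cfsg.Agent.Lib.Helper50Str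

variable {F : Type*} [Field F] {n : ℕ}

local notation "SLn" => Matrix.SpecialLinearGroup (Fin n) F
local notation "Mn" => Matrix (Fin n) (Fin n) F
local notation "π" => (QuotientGroup.mk : Matrix.SpecialLinearGroup (Fin n) F →
  Matrix.SpecialLinearGroup (Fin n) F ⧸ Subgroup.center (Matrix.SpecialLinearGroup (Fin n) F))
local notation "AutP" => MulAut (Matrix.ProjectiveSpecialLinearGroup (Fin n) F)

theorem vecMul_skew (g : Mn) (hg : gᵀ = -g) (y : Fin n → F) : y ᵥ* g = -(g *ᵥ y) := by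
  have h1 : g = -gᵀ := by rw [hg, neg_neg]
  conv_lhs => rw [h1]
  rw [Matrix.vecMul_neg, Matrix.vecMul_transpose]

theorem dot_skew (h2 : (2 : F) ≠ 0) (g : Mn) (hg : gᵀ = -g) (y : Fin n → F) :
    y ⬝ᵥ (g *ᵥ y) = 0 := by
  have h1 : y ⬝ᵥ (g *ᵥ y) = -(y ⬝ᵥ (g *ᵥ y)) := by
    conv_lhs => rw [Matrix.dotProduct_mulVec, vecMul_skew g hg, neg_dotProduct, dotProduct_comm]
  have h3 : (2 : F) * (y ⬝ᵥ (g *ᵥ y)) = 0 := by linear_combination h1
  rcases mul_eq_zero.mp h3 with h | h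
  · exact absurd h h2
  · exact h

/-- the symplectic transvection `1 + (g y) yᵀ` -/
def sy (h2 : (2 : F) ≠ 0) (g : Mn) (hg : gᵀ = -g) (y : Fin n → F) : SLn :=
  tv (g *ᵥ y) y (dot_skew h2 g hg y)

theorem sy_mem (h2 : (2 : F) ≠ 0) (g : Mn) (hg : gᵀ = -g) (y : Fin n → F) :
    sy h2 g hg y ∈ isoS g := by
  rw [mem_isoS]
  show (1 + vecMulVec (g *ᵥ y) y) * g * (1 + vecMulVec (g *ᵥ y) y)ᵀ = g
  rw [Matrix.transpose_add, Matrix.transpose_one, Matrix.transpose_vecMulVec, add_mul, one_mul,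
    Matrix.vecMulVec_mul, vecMul_skew g hg, mul_add, mul_one, add_mul, Matrix.mul_vecMulVec,
    Matrix.vecMulVec_mul_vecMulVec, neg_dotProduct, dotProduct_comm, dot_skew h2 g hg,
    Matrix.vecMulVec_neg]
  simp

theorem mapEquiv_tv (τ : F ≃+* F) (u φ : Fin n → F) (h : φ ⬝ᵥ u = 0) :
    ∃ h', mapEquiv τ (tv u φ h) = tv (τ ∘ u) (τ ∘ φ) h' := by
  have h' : (τ ∘ φ) ⬝ᵥ (τ ∘ u) = 0 := by
    have := congrArg τ h
    rw [map_zero, dotProduct, map_sum] at this
    rw [dotProduct, ← this]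
    exact Finset.sum_congr rfl (fun i _ => (map_mul τ _ _).symm)
  refine ⟨h', Subtype.ext ?_⟩
  rw [mapEquiv_coe, tv_coe, tv_coe]
  ext i j
  simp only [Matrix.map_apply, Matrix.add_apply, Matrix.one_apply, Matrix.vecMulVec_apply, map_add,
    map_mul, Function.comp]
  split_ifs <;> simp

theorem mulVec_ne_zero (g : GL (Fin n) F) {y : Fin n → F} (hy : y ≠ 0) : (g : Mn) *ᵥ y ≠ 0 := by
  intro h0
  apply hy
  have := congrArg (fun v => ((g⁻¹ : GL (Fin n) F) : Mn) *ᵥ v) h0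
  simp only [Matrix.mulVec_mulVec, gl_inv_mul, Matrix.one_mulVec, Matrix.mulVec_zero] at this
  exact this

theorem line_fixed (hn : 3 ≤ n) (h2 : (2 : F) ≠ 0) (g : GL (Fin n) F) (hg : (g : Mn)ᵀ = -(g : Mn))
    (h : GL (Fin n) F) (τ : F ≃+* F)
    (hc : ∀ s ∈ isoS (g : Mn), (cHom h * fHom τ : AutP) (π s) = π s) (y : Fin n → F) :
    ∃ c : F, y ᵥ* (h : Mn) = c • (τ ∘ y) := by
  have : Nonempty (Fin n) := ⟨⟨0, by omega⟩⟩
  by_cases hy : y = 0
  · exact ⟨0, by rw [hy]; simp⟩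
  have e := hc _ (sy_mem h2 (g : Mn) hg y)
  simp only [MulAut.mul_apply, fHom_apply, cHom_apply, liftAut_mk] at e
  obtain ⟨h1, e1⟩ := mapEquiv_tv τ ((g : Mn) *ᵥ y) y (dot_skew h2 (g : Mn) hg y)
  obtain ⟨h3, e3⟩ := conjGL_tv h _ _ h1
  have e4 : π (tv ((h : Mn) *ᵥ (τ ∘ ((g : Mn) *ᵥ y))) ((τ ∘ y) ᵥ* ((h⁻¹ : GL (Fin n) F) : Mn)) h3) =
      π (tv ((g : Mn) *ᵥ y) y (dot_skew h2 (g : Mn) hg y)) := by
    rw [← e3, ← e1]
    exact e
  have e5 := vecMulVec_eq_of_mk_eq e4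
  obtain ⟨k, hk⟩ : ∃ k, ((g : Mn) *ᵥ y) k ≠ 0 := by
    by_contra hcon
    push Not at hcon
    exact mulVec_ne_zero g hy (funext hcon)
  refine ⟨((h : Mn) *ᵥ (τ ∘ ((g : Mn) *ᵥ y))) k / ((g : Mn) *ᵥ y) k, ?_⟩
  have e6 : y = (((h : Mn) *ᵥ (τ ∘ ((g : Mn) *ᵥ y))) k / ((g : Mn) *ᵥ y) k) •
      ((τ ∘ y) ᵥ* ((h⁻¹ : GL (Fin n) F) : Mn)) := by
    funext l
    have := congrFun (congrFun e5 k) l
    rw [Matrix.vecMulVec_apply, Matrix.vecMulVec_apply] at this
    rw [Pi.smul_apply, smul_eq_mul, div_mul_eq_mul_div, this, mul_div_cancel_left₀ _ hk]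
  conv_lhs => rw [e6]
  rw [Matrix.smul_vecMul, Matrix.vecMul_vecMul, gl_inv_mul, Matrix.vecMul_one]

/-- piece S2, first statement -/
theorem symp_core (hn : 3 ≤ n) (h2 : (2 : F) ≠ 0) (g : GL (Fin n) F) (hg : (g : Mn)ᵀ = -(g : Mn))
    (h : GL (Fin n) F) (τ : F ≃+* F)
    (hc : ∀ s ∈ isoS (g : Mn), (cHom h * fHom τ : AutP) (π s) = π s) :
    (cHom h * fHom τ : AutP) = 1 := by
  have L := line_fixed hn h2 g hg h τ hc
  have hsingle : ∀ (i : Fin n) (b : F), (τ ∘ (Pi.single i b : Fin n → F)) = Pi.single i (τ b) := by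
    intro i b
    funext l
    by_cases hl : l = i
    · subst hl; simp
    · simp [Pi.single_eq_of_ne hl]
  -- off-diagonal entries vanish
  have hoff : ∀ i j : Fin n, i ≠ j → (h : Mn) i j = 0 := by
    intro i j hij
    obtain ⟨c, hc'⟩ := L (Pi.single i 1)
    have := congrFun hc' j
    rw [Matrix.single_one_vecMul, hsingle, Pi.smul_apply, Pi.single_eq_of_ne hij.symm] at this
    simpa using this
  have hrel : ∀ i j : Fin n, i ≠ j → ∀ b : F, b * (h : Mn) j j = (h : Mn) i i * τ b := by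
    intro i j hij b
    obtain ⟨c, hc'⟩ := L (Pi.single i 1 + Pi.single j b)
    have hv : ∀ l, ((Pi.single i 1 + Pi.single j b : Fin n → F) ᵥ* (h : Mn)) l =
        (h : Mn) i l + b * (h : Mn) j l := by
      intro l
      rw [Matrix.add_vecMul, Pi.add_apply, Matrix.single_one_vecMul, Matrix.single_vecMul]
      rfl
    have hi := congrFun hc' i
    have hj := congrFun hc' j
    rw [hv, hoff j i hij.symm] at hi
    rw [hv, hoff i j hij] at hj
    simp only [Pi.smul_apply, Function.comp, Pi.add_apply, Pi.single_eq_same,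
      Pi.single_eq_of_ne hij, Pi.single_eq_of_ne hij.symm, smul_eq_mul, mul_zero, add_zero, zero_add,
      map_one, mul_one] at hi hj
    rw [hj, hi]
  let i0 : Fin n := ⟨0, by omega⟩
  let i1 : Fin n := ⟨1, by omega⟩
  have h01 : i0 ≠ i1 := by simp [i0, i1]
  have hdiag : ∀ j : Fin n, (h : Mn) j j = (h : Mn) i0 i0 := by
    intro j
    by_cases hj : i0 = j
    · rw [← hj]
    · have := hrel i0 j hj 1
      rwa [one_mul, map_one, mul_one] at this
  have hsc : (h : Mn) = Matrix.scalar (Fin n) ((h : Mn) i0 i0) := by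
    ext i j
    by_cases hij : i = j
    · subst hij
      rw [hdiag i]
      simp
    · rw [hoff i j hij]
      simp [hij]
  have hcen : h ∈ Subgroup.center (GL (Fin n) F) :=
    Matrix.GeneralLinearGroup.mem_center_iff_val_mem_range_scalar.2 ⟨_, hsc.symm⟩
  have hz0 : (h : Mn) i0 i0 ≠ 0 := by
    intro h0
    have h1 := gl_mul_inv h
    rw [hsc, h0, map_zero, zero_mul] at h1
    have := congrFun (congrFun h1 i0) i0
    simp at this
  have hτ : τ = 1 := by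
    ext b
    have := hrel i0 i1 h01 b
    rw [hdiag i1, mul_comm] at this
    exact (mul_left_cancel₀ hz0 this).symm
  rw [cHom_eq_one_of_mem_center h hcen, hτ, map_one, one_mul]

/-- piece S2, second statement -/
theorem symp_ne (hn : 3 ≤ n) (h2 : (2 : F) ≠ 0) (g : GL (Fin n) F) (hg : (g : Mn)ᵀ = -(g : Mn)) :
    ∃ s ∈ isoS (g : Mn), π s ≠ 1 := by
  have : Nonempty (Fin n) := ⟨⟨0, by omega⟩⟩
  let i0 : Fin n := ⟨0, by omega⟩
  refine ⟨sy h2 (g : Mn) hg (Pi.single i0 1), sy_mem h2 (g : Mn) hg _, ?_⟩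
  intro e
  have e1 := eq_of_mk_eq _ _ (isU2_tv _ _ (dot_skew h2 (g : Mn) hg (Pi.single i0 1))) isU2_one e
  have e2 : vecMulVec ((g : Mn) *ᵥ (Pi.single i0 1)) (Pi.single i0 (1 : F)) = 0 := by
    have := congrArg (fun s : SLn => (s : Mn)) e1
    simp only [tv_coe, Matrix.SpecialLinearGroup.coe_one] at this
    exact add_eq_left.mp this
  have hy : (Pi.single i0 1 : Fin n → F) ≠ 0 := by
    intro h0
    have := congrFun h0 i0
    simp at this
  apply mulVec_ne_zero g hy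
  funext k
  have := congrFun (congrFun e2 k) i0
  rw [Matrix.vecMulVec_apply] at this
  simpa using this

end Cfsg.Agent.Lib.Helper73LBS2
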