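import Mathlib
import Cfsg.Prelude
import Cfsg.Agent.Lib.Helper42LBDefs

set_option autoImplicit false
set_option linter.unusedSectionVars false

namespace Cfsg.Agent.Lib.Helper76LBF2

open Matrix Cfsg Cfsg.Agent.Lib.Helper50Aut Cfsg.Agent.Lib.Helper50AutStr
  Cfsg.Agent.Lib.Helper42BalA Cfsg.Agent.Lib.Helper49EichGen Cfsg.Agent.Lib.Helper42LBDefs

abbrev SL2 (R : Type*) [CommRing R] := Matrix.SpecialLinearGroup (Fin 2) R

def mZ3 : SL2 (ZMod 3) := ⟨!![-1, 0; 0, -1], by rw [Matrix.det_fin_two_of]; decide⟩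

set_option maxRecDepth 100000 in
theorem dec3 : ∀ s : SL2 (ZMod 3), s = 1 ∨ s = mZ3 ∨ ∃ y t : SL2 (ZMod 3),
    (t = s ∨ t = s * y * s⁻¹ * y⁻¹) ∧ t * t = mZ3 ∧ ∃ w, t * w ≠ w * t := by
  decide

set_option maxRecDepth 100000 in
theorem dec2 : ∀ s : SL2 (ZMod 2), s = 1 ∨ ∃ y t : SL2 (ZMod 2),
    (t = s ∨ t = s * y * s⁻¹ * y⁻¹) ∧ t * t * t = 1 ∧ ∃ w, t * w ≠ w * t := by
  decide

set_option maxRecDepth 100000 in
theorem pow3 : ∀ s : SL2 (ZMod 3), s ^ 12 = 1 := by decide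

set_option maxRecDepth 100000 in
theorem pow2 : ∀ s : SL2 (ZMod 2), s ^ 6 = 1 := by decide

variable {F : Type*} [Field F] [Fintype F]

/-- the map induced by the prime field -/
noncomputable def mu (r : ℕ) [CharP F r] : SL2 (ZMod r) →* SL2 F :=
  Matrix.SpecialLinearGroup.map (ZMod.castHom (dvd_refl r) F)

theorem mu_apply (r : ℕ) [CharP F r] (s : SL2 (ZMod r)) (i j : Fin 2) :
    (mu (F := F) r s : Matrix (Fin 2) (Fin 2) F) i j = ZMod.castHom (dvd_refl r) F (s.1 i j) := rfl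

theorem mu_injective (r : ℕ) [CharP F r] [Fact r.Prime] : Function.Injective (mu (F := F) r) := by
  intro a b hab
  ext i j
  have := congrArg (fun s : SL2 F => (s : Matrix (Fin 2) (Fin 2) F) i j) hab
  simp only [mu_apply] at this
  exact (ZMod.castHom (dvd_refl r) F).injective this

theorem exists_cast_of_fixed (r : ℕ) [CharP F r] [Fact r.Prime] (σ : F ≃+* F)
    (hsmall : Nat.card {a : F // σ a = a} ≤ 3) :
    (r = 2 ∨ r = 3) ∧ ∀ a : F, σ a = a → ∃ k : ZMod r, ZMod.castHom (dvd_refl r) F k = a := by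
  let A : AddSubgroup F :=
    { carrier := {a | σ a = a}
      add_mem' := by
        intro a b ha hb
        show σ (a + b) = a + b
        rw [map_add, ha, hb]
      zero_mem' := map_zero σ
      neg_mem' := by
        intro a ha
        show σ (-a) = -a
        rw [map_neg, ha] }
  let B : AddSubgroup F := (ZMod.castHom (dvd_refl r) F).toAddMonoidHom.range
  have hBA : B ≤ A := by
    rintro _ ⟨k, rfl⟩
    exact DFunLike.congr_fun (Subsingleton.elim ((σ : F →+* F).comp (ZMod.castHom (dvd_refl r) F))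
      (ZMod.castHom (dvd_refl r) F)) k
  have hB : Nat.card B = r := by
    have h1 : Nat.card B = Nat.card (ZMod r) :=
      (Nat.card_congr (AddMonoidHom.ofInjective
        (f := (ZMod.castHom (dvd_refl r) F).toAddMonoidHom)
        (ZMod.castHom (dvd_refl r) F).injective).toEquiv).symm
    rw [h1, Nat.card_zmod]
  have hA : Nat.card A ≤ 3 := hsmall
  have hdvd : r ∣ Nat.card A := hB ▸ AddSubgroup.card_dvd_of_le hBA
  have hApos : 0 < Nat.card A := Nat.card_pos
  have hr2 : 2 ≤ r := (Fact.out : r.Prime).two_le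
  have hrle : r ≤ Nat.card A := Nat.le_of_dvd hApos hdvd
  have hAr : Nat.card A = r := by
    obtain ⟨c, hc⟩ := hdvd
    have hc1 : c = 1 := by
      rcases Nat.lt_or_ge c 2 with h | h
      · interval_cases c
        · omega
        · rfl
      · nlinarith
    rw [hc, hc1, mul_one]
  refine ⟨by omega, ?_⟩
  have hEq : B = A := AddSubgroup.eq_of_le_of_card_ge hBA (by rw [hB, hAr])
  intro a ha
  have : a ∈ B := by rw [hEq]; exact ha
  obtain ⟨k, hk⟩ := this
  exact ⟨k, hk⟩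

theorem mu_mem_fixS (r : ℕ) [CharP F r] (σ : F ≃+* F) (s : SL2 (ZMod r)) :
    mu (F := F) r s ∈ fixS (n := 2) σ := by
  rw [mem_fixS]
  ext i j
  rw [mapEquiv_coe]
  show σ (ZMod.castHom (dvd_refl r) F (s.1 i j)) = ZMod.castHom (dvd_refl r) F (s.1 i j)
  exact DFunLike.congr_fun (Subsingleton.elim ((σ : F →+* F).comp (ZMod.castHom (dvd_refl r) F))
      (ZMod.castHom (dvd_refl r) F)) _

theorem exists_mu_eq (r : ℕ) [CharP F r] [Fact r.Prime] (σ : F ≃+* F)
    (hfix : ∀ a : F, σ a = a → ∃ k : ZMod r, ZMod.castHom (dvd_refl r) F k = a)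
    (s : SL2 F) (hs : s ∈ fixS (n := 2) σ) : ∃ s' : SL2 (ZMod r), mu r s' = s := by
  have h1 : ∀ i j, σ (s.1 i j) = s.1 i j := by
    intro i j
    have := congrArg (fun t : SL2 F => (t : Matrix (Fin 2) (Fin 2) F) i j) (mem_fixS.mp hs)
    simpa [mapEquiv_coe] using this
  choose k hk using fun i j => hfix _ (h1 i j)
  have hmap : (ZMod.castHom (dvd_refl r) F).mapMatrix (Matrix.of k) = s.1 := by
    ext i j
    exact hk i j
  have hdet : (Matrix.of k).det = 1 := by
    apply (ZMod.castHom (dvd_refl r) F).injective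
    rw [RingHom.map_det, hmap, s.2, map_one]
  refine ⟨⟨Matrix.of k, hdet⟩, ?_⟩
  ext i j
  exact hk i j

theorem generic (r : ℕ) [CharP F r] [Fact r.Prime] (σ : F ≃+* F)
    (hfix : ∀ a : F, σ a = a → ∃ k : ZMod r, ZMod.castHom (dvd_refl r) F k = a)
    (p : ℕ) [Fact p.Prime]
    (hdec : ∀ s : SL2 (ZMod r), mu (F := F) r s ∈ Subgroup.center (SL2 F) ∨
      ∃ y t : SL2 (ZMod r), (t = s ∨ t = s * y * s⁻¹ * y⁻¹) ∧
        mu (F := F) r (t ^ p) ∈ Subgroup.center (SL2 F) ∧ ∃ w, t * w ≠ w * t)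
    (N : Subgroup ↥(fixS (n := 2) σ)) (hN : N.Normal) :
    (∀ x ∈ N, (QuotientGroup.mk (x : Matrix.SpecialLinearGroup (Fin 2) F) :
        Matrix.ProjectiveSpecialLinearGroup (Fin 2) F) = 1) ∨
      ∃ t ∈ N, orderOf (QuotientGroup.mk (t : Matrix.SpecialLinearGroup (Fin 2) F) :
        Matrix.ProjectiveSpecialLinearGroup (Fin 2) F) = p := by
  by_cases hall : ∀ x ∈ N, (QuotientGroup.mk (x : Matrix.SpecialLinearGroup (Fin 2) F) :
        Matrix.ProjectiveSpecialLinearGroup (Fin 2) F) = 1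
  · exact Or.inl hall
  right
  push Not at hall
  obtain ⟨x, hxN, hx1⟩ := hall
  obtain ⟨s, hs⟩ := exists_mu_eq r σ hfix x.1 x.2
  rcases hdec s with hc | ⟨y, t, ht, htp, w, hw⟩
  · exfalso
    apply hx1
    rw [← hs]
    exact (QuotientGroup.eq_one_iff _).mpr hc
  have htN : (⟨mu r t, mu_mem_fixS r σ t⟩ : ↥(fixS (n := 2) σ)) ∈ N := by
    rcases ht with rfl | rfl
    · have : (⟨mu r t, mu_mem_fixS r σ t⟩ : ↥(fixS (n := 2) σ)) = x := Subtype.ext hs
      rw [this]; exact hxN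
    · have : (⟨mu r (s * y * s⁻¹ * y⁻¹), mu_mem_fixS r σ _⟩ : ↥(fixS (n := 2) σ))
          = x * (⟨mu r y, mu_mem_fixS r σ y⟩ * x⁻¹ * ⟨mu r y, mu_mem_fixS r σ y⟩⁻¹) := by
        apply Subtype.ext
        simp only [map_mul, map_inv, Subgroup.coe_mul, Subgroup.coe_inv, hs, mul_assoc]
      rw [this]
      exact N.mul_mem hxN (hN.conj_mem _ (N.inv_mem hxN) _)
  refine ⟨_, htN, ?_⟩
  apply orderOf_eq_prime
  · show (QuotientGroup.mk (mu r t) : Matrix.ProjectiveSpecialLinearGroup (Fin 2) F) ^ p = 1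
    rw [← QuotientGroup.mk_pow, ← map_pow]
    exact (QuotientGroup.eq_one_iff _).mpr htp
  · intro h
    have hc : mu (F := F) r t ∈ Subgroup.center (SL2 F) := (QuotientGroup.eq_one_iff _).mp h
    apply hw
    apply mu_injective (F := F) r
    rw [map_mul, map_mul]
    exact (Subgroup.mem_center_iff.mp hc (mu r w)).symm

theorem mu_mZ3_mem_center [CharP F 3] : mu (F := F) 3 mZ3 ∈ Subgroup.center (SL2 F) := by
  have e : (mu (F := F) 3 mZ3 : Matrix (Fin 2) (Fin 2) F) = !![-1, 0; 0, -1] := by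
    ext i j
    rw [mu_apply]
    fin_cases i <;> fin_cases j <;> simp [mZ3]
  rw [Subgroup.mem_center_iff]
  intro g
  ext i j
  rw [Matrix.SpecialLinearGroup.coe_mul, Matrix.SpecialLinearGroup.coe_mul, e]
  fin_cases i <;> fin_cases j <;>
    simp [Matrix.mul_apply, Fin.sum_univ_two]

/-- piece F2 -/
theorem fix_H3_small (r : ℕ) [CharP F r] (σ : F ≃+* F) (hsmall : Nat.card {a : F // σ a = a} ≤ 3)
    (p : ℕ) [Fact p.Prime] (hpr : p ≠ r) (t₀ : Matrix.SpecialLinearGroup (Fin 2) F)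
    (ht₀ : t₀ ∈ fixS σ)
    (ho : orderOf (QuotientGroup.mk t₀ : Matrix.ProjectiveSpecialLinearGroup (Fin 2) F) = p)
    (N : Subgroup ↥(fixS (n := 2) σ)) (hN : N.Normal) :
    (∀ x ∈ N, (QuotientGroup.mk (x : Matrix.SpecialLinearGroup (Fin 2) F) :
        Matrix.ProjectiveSpecialLinearGroup (Fin 2) F) = 1) ∨
      ∃ t ∈ N, orderOf (QuotientGroup.mk (t : Matrix.SpecialLinearGroup (Fin 2) F) :
        Matrix.ProjectiveSpecialLinearGroup (Fin 2) F) = p := by
  have hr : r.Prime := CharP.char_is_prime F r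
  have : Fact r.Prime := ⟨hr⟩
  obtain ⟨hr23, hfix⟩ := exists_cast_of_fixed r σ hsmall
  obtain ⟨s₀, hs₀⟩ := exists_mu_eq r σ hfix t₀ ht₀
  have hpp : p.Prime := Fact.out
  rcases hr23 with rfl | rfl
  · -- `r = 2`, `p = 3`
    have hp3 : p = 3 := by
      have h1 : (QuotientGroup.mk t₀ : Matrix.ProjectiveSpecialLinearGroup (Fin 2) F) ^ 6 = 1 := by
        rw [← QuotientGroup.mk_pow, ← hs₀, ← map_pow, pow2, map_one]
        rfl
      have h2 := orderOf_dvd_of_pow_eq_one h1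
      rw [ho] at h2
      have h3 : p ∣ 2 * 3 := h2
      rcases (Nat.Prime.dvd_mul hpp).mp h3 with h | h
      · exact absurd ((Nat.prime_dvd_prime_iff_eq hpp Nat.prime_two).mp h) hpr
      · exact (Nat.prime_dvd_prime_iff_eq hpp Nat.prime_three).mp h
    subst hp3
    apply generic 2 σ hfix 3 _ N hN
    intro s
    rcases dec2 s with rfl | ⟨y, t, h1, h2, h3⟩
    · left; rw [map_one]; exact Subgroup.one_mem _
    · right
      refine ⟨y, t, h1, ?_, h3⟩
      have : t ^ 3 = 1 := by rw [pow_succ, pow_two, h2]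
      rw [this, map_one]; exact Subgroup.one_mem _
  · -- `r = 3`, `p = 2`
    have hp2 : p = 2 := by
      have h1 : (QuotientGroup.mk t₀ : Matrix.ProjectiveSpecialLinearGroup (Fin 2) F) ^ 12 = 1 := by
        rw [← QuotientGroup.mk_pow, ← hs₀, ← map_pow, pow3, map_one]
        rfl
      have h2 := orderOf_dvd_of_pow_eq_one h1
      rw [ho] at h2
      have h3 : p ∣ 2 * (2 * 3) := h2
      rcases (Nat.Prime.dvd_mul hpp).mp h3 with h | h
      · exact (Nat.prime_dvd_prime_iff_eq hpp Nat.prime_two).mp h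
      · rcases (Nat.Prime.dvd_mul hpp).mp h with h | h
        · exact (Nat.prime_dvd_prime_iff_eq hpp Nat.prime_two).mp h
        · exact absurd ((Nat.prime_dvd_prime_iff_eq hpp Nat.prime_three).mp h) hpr
    subst hp2
    apply generic 3 σ hfix 2 _ N hN
    intro s
    rcases dec3 s with rfl | rfl | ⟨y, t, h1, h2, h3⟩
    · left; rw [map_one]; exact Subgroup.one_mem _
    · left; exact mu_mZ3_mem_center
    · right
      refine ⟨y, t, h1, ?_, h3⟩
      rw [pow_two, h2]; exact mu_mZ3_mem_center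

end Cfsg.Agent.Lib.Helper76LBF2
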