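import Mathlib
import Cfsg.Agent.S0752

set_option autoImplicit false

namespace Cfsg.Agent.Lib.Helper48AltCongr

open Module

variable {F : Type*} [Field F]

section abs
variable {V : Type*} [AddCommGroup V] [Module F V]

/-- the standard Gram table of an alternating form of rank `2 m` with radical of dimension `k` -/
def gram (m k : ℕ) : ((Fin m ⊕ Fin m) ⊕ Fin k) → ((Fin m ⊕ Fin m) ⊕ Fin k) → F
  | Sum.inl (Sum.inl i), Sum.inl (Sum.inr j) => if i = j then 1 else 0
  | Sum.inl (Sum.inr i), Sum.inl (Sum.inl j) => if j = i then -1 else 0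
  | _, _ => 0

theorem gram_eq (B : LinearMap.BilinForm F V) (hA : B.IsAlt) {m k : ℕ}
    (b : Basis ((Fin m ⊕ Fin m) ⊕ Fin k) F V)
    (h1 : ∀ i j : Fin m, B (b (Sum.inl (Sum.inl i))) (b (Sum.inl (Sum.inr j)))
      = if i = j then 1 else 0)
    (h2 : ∀ i j : Fin m, B (b (Sum.inl (Sum.inl i))) (b (Sum.inl (Sum.inl j))) = 0)
    (h3 : ∀ i j : Fin m, B (b (Sum.inl (Sum.inr i))) (b (Sum.inl (Sum.inr j))) = 0)
    (h4 : ∀ (j : Fin k) (v : V), B (b (Sum.inr j)) v = 0) (x y) :
    B (b x) (b y) = gram m k x y := by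
  rcases x with (i | i) | i <;> rcases y with (j | j) | j
  · exact h2 i j
  · exact h1 i j
  · rw [← hA.neg_eq, h4, neg_zero]; rfl
  · rw [← hA.neg_eq, h1]
    change _ = if j = i then (-1 : F) else 0
    split_ifs <;> simp
  · exact h3 i j
  · rw [← hA.neg_eq, h4, neg_zero]; rfl
  · exact h4 _ _
  · exact h4 _ _
  · exact h4 _ _

theorem finrank_ker (B : LinearMap.BilinForm F V) {m k : ℕ}
    (b : Basis ((Fin m ⊕ Fin m) ⊕ Fin k) F V)
    (h : ∀ x y, B (b x) (b y) = gram m k x y) : finrank F (LinearMap.ker B) = k := by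
  have hB : ∀ v y, B v (b y) = ∑ x, b.repr v x * gram m k x y := by
    intro v y
    conv_lhs => rw [← b.sum_repr v]
    rw [map_sum, LinearMap.sum_apply]
    refine Finset.sum_congr rfl fun x _ => ?_
    rw [map_smul, LinearMap.smul_apply, h, smul_eq_mul]
  have hker : LinearMap.ker B = Submodule.span F (Set.range (b ∘ Sum.inr)) := by
    apply le_antisymm
    · intro v hv
      rw [LinearMap.mem_ker] at hv
      rw [Set.range_comp, Basis.mem_span_image]
      intro x hx
      rw [Finset.mem_coe, Finsupp.mem_support_iff] at hx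
      rcases x with (i | i) | i
      · exfalso
        apply hx
        have h1 := hB v (Sum.inl (Sum.inr i))
        rw [hv, LinearMap.zero_apply, Fintype.sum_sum_type, Fintype.sum_sum_type] at h1
        simp [gram] at h1
        exact h1.symm
      · exfalso
        apply hx
        have h1 := hB v (Sum.inl (Sum.inl i))
        rw [hv, LinearMap.zero_apply, Fintype.sum_sum_type, Fintype.sum_sum_type] at h1
        simp [gram] at h1
        exact h1
      · exact ⟨i, rfl⟩
    · rw [Submodule.span_le]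
      rintro _ ⟨j, rfl⟩
      rw [SetLike.mem_coe, LinearMap.mem_ker]
      apply b.ext
      intro y
      rw [Function.comp_apply, h, LinearMap.zero_apply]
      rfl
  rw [hker, finrank_span_eq_card (b.linearIndependent.comp _ Sum.inr_injective), Fintype.card_fin]

theorem exists_congr [FiniteDimensional F V] (B₁ B₂ : LinearMap.BilinForm F V) (hA₁ : B₁.IsAlt)
    (hA₂ : B₂.IsAlt) (hker : LinearMap.ker B₁ = LinearMap.ker B₂) :
    ∃ Q : V →ₗ[F] V, ∀ x y, B₁ (Q x) (Q y) = B₂ x y := by
  obtain ⟨m₁, k₁, b₁, h11, h12, h13, h14⟩ := Cfsg.Agent.S0752.result B₁ hA₁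
  obtain ⟨m₂, k₂, b₂, h21, h22, h23, h24⟩ := Cfsg.Agent.S0752.result B₂ hA₂
  have g1 := gram_eq B₁ hA₁ b₁ h11 h12 h13 h14
  have g2 := gram_eq B₂ hA₂ b₂ h21 h22 h23 h24
  have hk : k₁ = k₂ := by rw [← finrank_ker B₁ b₁ g1, hker, finrank_ker B₂ b₂ g2]
  subst hk
  have hm : m₁ = m₂ := by
    have e1 := finrank_eq_card_basis b₁
    have e2 := finrank_eq_card_basis b₂
    simp only [Fintype.card_sum, Fintype.card_fin] at e1 e2
    omega
  subst hm
  refine ⟨(b₂.equiv b₁ (Equiv.refl _) : V →ₗ[F] V), ?_⟩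
  have h : B₁.compl₁₂ (b₂.equiv b₁ (Equiv.refl _) : V →ₗ[F] V)
      (b₂.equiv b₁ (Equiv.refl _) : V →ₗ[F] V) = B₂ := by
    apply LinearMap.ext_basis b₂ b₂
    intro x y
    rw [LinearMap.compl₁₂_apply]
    simp [g1, g2]
  intro x y
  rw [← h, LinearMap.compl₁₂_apply]

end abs

theorem matrix_congr {n : Type*} [Fintype n] [DecidableEq n] (Y H H' : Matrix n n F)
    (hHH' : H * H' = 1) (h₁ : ∀ x : n → F, x ⬝ᵥ Y.mulVec x = 0)
    (h₂ : ∀ x : n → F, x ⬝ᵥ (Y * H).mulVec x = 0) :
    ∃ Q : Matrix n n F, Q.transpose * Y * Q = Y * H := by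
  have hmem : ∀ (M : Matrix n n F) (v : n → F),
      v ∈ LinearMap.ker (Matrix.toBilin' M) ↔ Matrix.vecMul v M = 0 := by
    intro M v
    rw [LinearMap.mem_ker]
    constructor
    · intro h
      rw [← dotProduct_eq_zero_iff]
      intro w
      have := congrArg (fun f => f w) h
      simpa [Matrix.toBilin'_apply', Matrix.dotProduct_mulVec] using this
    · intro h
      apply LinearMap.ext
      intro w
      rw [Matrix.toBilin'_apply', Matrix.dotProduct_mulVec, h, zero_dotProduct,
        LinearMap.zero_apply]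
  obtain ⟨Q, hQ⟩ := exists_congr (Matrix.toBilin' Y) (Matrix.toBilin' (Y * H))
    (fun x => by rw [Matrix.toBilin'_apply']; exact h₁ x)
    (fun x => by rw [Matrix.toBilin'_apply']; exact h₂ x)
    (by
      ext v
      rw [hmem, hmem, ← Matrix.vecMul_vecMul]
      constructor
      · intro h; rw [h, Matrix.zero_vecMul]
      · intro h
        have := congrArg (fun w => Matrix.vecMul w H') h
        simpa [Matrix.vecMul_vecMul, Matrix.mul_assoc, hHH'] using this)
  refine ⟨LinearMap.toMatrix' Q, ?_⟩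
  apply (Matrix.toBilin' (R₁ := F) (n := n)).injective
  rw [← Matrix.toBilin'_comp, Matrix.toLin'_toMatrix']
  ext x y
  exact hQ _ _

end Cfsg.Agent.Lib.Helper48AltCongr
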