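import Mathlib
import Cfsg.Agent.Lib.Helper48Norm

set_option autoImplicit false

namespace Cfsg.Agent.Lib.Helper48Good

open Cfsg.Agent.Lib.Helper48Norm

section good
variable {R : Type*} [Ring R] [Finite R] (st : R →+ R)
  (hmul : ∀ a b, st (a * b) = st b * st a) (hone : st 1 = 1) (hst2 : ∀ a, st (st a) = a)

include hmul hone hst2 in
/-- norm equation on the part of a commutative `st`-stable subring where `a - st a` is
invertible -/
theorem good_part (S : Subring R) (hcomm : ∀ x ∈ S, ∀ y ∈ S, x * y = y * x)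
    (hstS : ∀ x ∈ S, st x ∈ S) (a H H' e v : R) (ha : a ∈ S) (hH : H ∈ S) (hH' : H' ∈ S)
    (he : e ∈ S) (hv : v ∈ S) (hstH : st H = H) (hHH' : H * H' = 1)
    (hee : e * e = e) (hste : st e = e) (hav : (a - st a) * v = e) :
    ∃ z ∈ S, (st z * z - H) * e = 0 := by
  let _ : CommRing S :=
    { (inferInstance : Ring S) with mul_comm := fun x y => Subtype.ext (hcomm x x.2 y y.2) }
  let σ : S →+* S :=
    { toFun := fun x => ⟨st x, hstS x x.2⟩
      map_one' := Subtype.ext hone
      map_mul' := fun x y => Subtype.ext (by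
        change st (x.1 * y.1) = st x.1 * st y.1
        rw [hmul]
        exact hcomm _ (hstS _ y.2) _ (hstS _ x.2))
      map_zero' := Subtype.ext (map_zero st)
      map_add' := fun x y => Subtype.ext (map_add st _ _) }
  have hσ : ∀ x : S, (σ x : R) = st x := fun x => rfl
  have hσ2 : ∀ x, σ (σ x) = x := fun x => Subtype.ext (hst2 x)
  let eS : S := ⟨e, he⟩
  let I : Ideal S := Ideal.span {1 - eS}
  have hσe : σ eS = eS := Subtype.ext hste
  have hI : I ≤ I.comap σ := by
    rw [Ideal.span_le]
    intro x hx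
    rw [Set.mem_singleton_iff] at hx
    subst hx
    change σ (1 - eS) ∈ I
    rw [map_sub, map_one, hσe]
    exact Ideal.subset_span rfl
  let s : S ⧸ I →+* S ⧸ I := Ideal.quotientMap I σ hI
  have hs : ∀ b, s (Ideal.Quotient.mk I b) = Ideal.Quotient.mk I (σ b) := fun b =>
    Ideal.quotientMap_mk
  have hs2 : ∀ x, s (s x) = x := by
    intro x
    obtain ⟨b, rfl⟩ := Ideal.Quotient.mk_surjective x
    rw [hs, hs, hσ2]
  have _ : Finite (S ⧸ I) := Finite.of_surjective _ (Ideal.Quotient.mk_surjective (I := I))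
  have he1 : Ideal.Quotient.mk I eS = 1 := by
    rw [← map_one (Ideal.Quotient.mk I), eq_comm, Ideal.Quotient.eq]
    exact Ideal.subset_span rfl
  have hω : IsUnit (Ideal.Quotient.mk I ⟨a, ha⟩ - s (Ideal.Quotient.mk I ⟨a, ha⟩)) := by
    refine IsUnit.of_mul_eq_one (Ideal.Quotient.mk I ⟨v, hv⟩) ?_
    rw [hs, ← map_sub, ← map_mul, ← he1]
    congr 1
    exact Subtype.ext hav
  have hHu : IsUnit (Ideal.Quotient.mk I ⟨H, hH⟩) := by
    refine IsUnit.of_mul_eq_one (Ideal.Quotient.mk I ⟨H', hH'⟩) ?_
    rw [← map_mul, ← map_one (Ideal.Quotient.mk I)]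
    congr 1
    exact Subtype.ext hHH'
  obtain ⟨z, hz⟩ := exists_norm s hs2 _ hω _ hHu (by
    rw [hs]
    congr 1
    exact Subtype.ext hstH)
  obtain ⟨z, rfl⟩ := Ideal.Quotient.mk_surjective z
  rw [hs, ← map_mul, Ideal.Quotient.eq, Ideal.mem_span_singleton] at hz
  obtain ⟨c, hc⟩ := hz
  refine ⟨z, z.2, ?_⟩
  have h1 : st z.1 * z.1 - H = (1 - e) * c.1 := congrArg Subtype.val hc
  rw [h1, mul_assoc, hcomm _ c.2 _ he, ← mul_assoc, sub_mul, one_mul, hee, sub_self, zero_mul]


end good

section idem
variable (F : Type*) [Field F] {A : Type*} [Ring A] [Algebra F A]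

/-- the averaging idempotent of an element of order dividing `k` -/
noncomputable def EE (k : ℕ) (T : A) : A := (k : F)⁻¹ • ∑ i ∈ Finset.range k, T ^ i

/-- a quasi-inverse of `T - 1` -/
noncomputable def WW (k : ℕ) (T : A) : A := (k : F)⁻¹ • ∑ i ∈ Finset.range k, (i : F) • T ^ i

variable {F}

theorem mul_EE (k : ℕ) (T : A) (hT : T ^ k = 1) : T * EE F k T = EE F k T := by
  have h := mul_geom_sum T k
  rw [hT, sub_self, sub_mul, one_mul, sub_eq_zero] at h
  rw [EE, mul_smul_comm, h]

theorem EE_mul_of_fixed (k : ℕ) (hk : (k : F) ≠ 0) (T X : A) (h : T * X = X) :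
    EE F k T * X = X := by
  have h1 : ∀ i : ℕ, T ^ i * X = X := by
    intro i
    induction i with
    | zero => rw [pow_zero, one_mul]
    | succ i ih => rw [pow_succ, mul_assoc, h, ih]
  rw [EE, smul_mul_assoc, Finset.sum_mul, Finset.sum_congr rfl (fun i _ => h1 i),
    Finset.sum_const, Finset.card_range, ← Nat.cast_smul_eq_nsmul F, smul_smul,
    inv_mul_cancel₀ hk, one_smul]

theorem EE_idem (k : ℕ) (hk : (k : F) ≠ 0) (T : A) (hT : T ^ k = 1) :
    EE F k T * EE F k T = EE F k T :=
  EE_mul_of_fixed k hk T _ (mul_EE k T hT)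

theorem commute_EE (k : ℕ) (T X : A) (h : Commute X T) : Commute X (EE F k T) := by
  rw [EE]
  exact (Commute.sum_right _ _ _ (fun i _ => h.pow_right i)).smul_right _

theorem commute_WW (k : ℕ) (T X : A) (h : Commute X T) : Commute X (WW F k T) := by
  rw [WW]
  exact (Commute.sum_right _ _ _ (fun i _ => (h.pow_right i).smul_right _)).smul_right _

theorem sub_one_mul_sum (k : ℕ) (T : A) :
    (T - 1) * ∑ i ∈ Finset.range k, (i : F) • T ^ i
      = (k : F) • T ^ k - T * ∑ i ∈ Finset.range k, T ^ i := by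
  induction k with
  | zero => simp
  | succ k ih =>
    rw [Finset.sum_range_succ, Finset.sum_range_succ, mul_add, ih, mul_add, ← pow_succ',
      mul_smul_comm, sub_mul, one_mul, ← pow_succ', Nat.cast_succ, add_smul, one_smul, smul_sub]
    abel

theorem sub_one_mul_WW (k : ℕ) (hk : (k : F) ≠ 0) (T : A) (hT : T ^ k = 1) :
    (T - 1) * WW F k T = 1 - EE F k T := by
  have h := mul_geom_sum T k
  rw [hT, sub_self, sub_mul, one_mul, sub_eq_zero] at h
  rw [WW, mul_smul_comm, sub_one_mul_sum, hT, h, smul_sub, smul_smul, inv_mul_cancel₀ hk,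
    one_smul, EE]

theorem EE_inv (k : ℕ) (hk : (k : F) ≠ 0) (T T' : A) (hT : T ^ k = 1) (h1 : T * T' = 1)
    (h2 : T' * T = 1) : EE F k T' = EE F k T := by
  have hT' : T' ^ k = 1 := by
    have hc : Commute T' T := by rw [Commute, SemiconjBy, h1, h2]
    calc T' ^ k = T' ^ k * T ^ k := by rw [hT, mul_one]
      _ = 1 := by rw [← hc.mul_pow, h2, one_pow]
  have h3 : T' * EE F k T = EE F k T := by
    calc T' * EE F k T = T' * (T * EE F k T) := by rw [mul_EE k T hT]
      _ = EE F k T := by rw [← mul_assoc, h2, one_mul]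
  have h4 : T * EE F k T' = EE F k T' := by
    calc T * EE F k T' = T * (T' * EE F k T') := by rw [mul_EE k T' hT']
      _ = EE F k T' := by rw [← mul_assoc, h1, one_mul]
  have h5 := EE_mul_of_fixed k hk T' _ h3
  have h6 := EE_mul_of_fixed k hk T _ h4
  have hc : Commute (EE F k T) (EE F k T') := by
    apply commute_EE
    apply Commute.symm
    apply commute_EE
    rw [Commute, SemiconjBy, h1, h2]
  rw [← h6, hc.eq, h5]

end idem


section assemble
variable {F : Type*} [Field F] {A : Type*} [Ring A] [Algebra F A]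
  (st : A →+ A) (hmul : ∀ a b, st (a * b) = st b * st a) (hone : st 1 = 1)
  (hst2 : ∀ a, st (st a) = a) (hsmul : ∀ (c : F) (a : A), st (c • a) = c • st a)

/-- a partial solution of `st Z * Z = H` supported on the idempotent `e` -/
structure Part (H a e Z : A) : Prop where
  idem : e * e = e
  ste : st e = e
  left : e * Z = Z
  right : Z * e = Z
  norm : st Z * Z = H * e
  comm : a * Z = Z * a

include hmul in
theorem Part.add {H a e f Z Y : A} (h1 : Part st H a e Z) (h2 : Part st H a f Y)
    (hef : e * f = 0) (hfe : f * e = 0) : Part st H a (e + f) (Z + Y) where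
  idem := by rw [mul_add, add_mul, add_mul, h1.idem, h2.idem, hef, hfe, add_zero, zero_add]
  ste := by rw [map_add, h1.ste, h2.ste]
  left := by
    have h3 : e * Y = 0 := by rw [← h2.left, ← mul_assoc, hef, zero_mul]
    have h4 : f * Z = 0 := by rw [← h1.left, ← mul_assoc, hfe, zero_mul]
    rw [mul_add, add_mul, add_mul, h1.left, h2.left, h3, h4, add_zero, zero_add]
  right := by
    have h3 : Y * e = 0 := by rw [← h2.right, mul_assoc, hfe, mul_zero]
    have h4 : Z * f = 0 := by rw [← h1.right, mul_assoc, hef, mul_zero]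
    rw [mul_add, add_mul, add_mul, h1.right, h2.right, h3, h4, add_zero, zero_add]
  norm := by
    have h5 : st Z = st Z * e := by
      conv_lhs => rw [← h1.left, hmul, h1.ste]
    have h6 : st Y = st Y * f := by
      conv_lhs => rw [← h2.left, hmul, h2.ste]
    have h3 : st Z * Y = 0 := by rw [h5, ← h2.left, mul_assoc, ← mul_assoc e, hef, zero_mul, mul_zero]
    have h4 : st Y * Z = 0 := by rw [h6, ← h1.left, mul_assoc, ← mul_assoc f, hfe, zero_mul, mul_zero]
    rw [map_add, mul_add, add_mul, add_mul, h1.norm, h2.norm, h3, h4, add_zero, zero_add, mul_add]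
  comm := by rw [mul_add, add_mul, h1.comm, h2.comm]

include hmul hone hsmul in
theorem st_EE (k : ℕ) (T : A) : st (EE F k T) = EE F k (st T) := by
  have hpow : ∀ i : ℕ, st (T ^ i) = (st T) ^ i := by
    intro i
    induction i with
    | zero => simpa using hone
    | succ i ih => rw [pow_succ, hmul, ih, pow_succ']
  rw [EE, EE, hsmul, map_sum]
  simp only [hpow]

theorem commute_inv_right {M : Type*} [Monoid M] (y h h' : M) (h1 : h * h' = 1) (h2 : h' * h = 1)
    (hy : Commute y h) : Commute y h' := by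
  change y * h' = h' * y
  calc y * h' = h' * h * (y * h') := by rw [h2, one_mul]
    _ = h' * (h * y) * h' := by simp only [mul_assoc]
    _ = h' * (y * h) * h' := by rw [hy.eq]
    _ = h' * y * (h * h') := by simp only [mul_assoc]
    _ = h' * y := by rw [h1, mul_one]

include hmul hone hst2 hsmul in
/-- reduction of the equation `st Z * Z = H` in the centraliser of a semisimple isometry `a` to
its `±1`-eigenspaces -/
theorem exists_sqrt [Finite A] (k : ℕ) (hk : (k : F) ≠ 0) (a a' H H' : A) (hak : a ^ k = 1)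
    (haa' : a * a' = 1) (ha'a : a' * a = 1) (hsta : st a = a') (hstH : st H = H)
    (hHH' : H * H' = 1) (hH'H : H' * H = 1) (hc : a * H = H * a)
    (hbad : ∀ e : A, e * e = e → st e = e → e * H = H * e →
      ∃ Z, e * Z = Z ∧ Z * e = Z ∧ st Z * Z = H * e) :
    ∃ Z, st Z * Z = H ∧ a * Z = Z * a := by
  set ep : A := EE F k a with hep
  set eb : A := EE F k (a * a) with heb
  set em : A := eb - ep with hem
  set eg : A := 1 - eb with heg
  set v : A := a * WW F k (a * a) with hv
  have haak : (a * a) ^ k = 1 := by rw [(Commute.refl a).mul_pow, hak, one_mul]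
  have hpp : ep * ep = ep := EE_idem k hk a hak
  have hbb : eb * eb = eb := EE_idem k hk (a * a) haak
  have hap : a * ep = ep := mul_EE k a hak
  have hcpa : Commute a ep := commute_EE k a a (Commute.refl a)
  have hpa : ep * a = ep := by rw [← hcpa.eq, hap]
  have hab : a * a * eb = eb := mul_EE k (a * a) haak
  have hcba : Commute a eb := commute_EE k (a * a) a ((Commute.refl a).mul_right (Commute.refl a))
  have hbp : eb * ep = ep := EE_mul_of_fixed k hk (a * a) ep (by rw [mul_assoc, hap, hap])
  have hcpb : Commute ep eb := commute_EE k (a * a) ep (hcpa.symm.mul_right hcpa.symm)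
  have hpb : ep * eb = ep := by rw [hcpb.eq, hbp]
  have hsta' : st a' = a := by rw [← hsta, hst2]
  have hstp : st ep = ep := by
    rw [hep, st_EE st hmul hone hsmul, hsta, EE_inv k hk a a' hak haa' ha'a]
  have hstb : st eb = eb := by
    rw [heb, st_EE st hmul hone hsmul, hmul, hsta]
    refine EE_inv k hk (a * a) (a' * a') haak ?_ ?_
    · calc a * a * (a' * a') = a * (a * a') * a' := by simp only [mul_assoc]
        _ = 1 := by rw [haa', mul_one, haa']
    · calc a' * a' * (a * a) = a' * (a' * a) * a := by simp only [mul_assoc]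
        _ = 1 := by rw [ha'a, mul_one, ha'a]
  have hmm : em * em = em := by
    rw [hem, sub_mul, mul_sub, mul_sub, hbb, hbp, hpb, hpp, sub_self, sub_zero]
  have hpm : ep * em = 0 := by rw [hem, mul_sub, hpb, hpp, sub_self]
  have hmp : em * ep = 0 := by rw [hem, sub_mul, hbp, hpp, sub_self]
  have hgg : eg * eg = eg := by
    rw [heg, sub_mul, one_mul, mul_sub, mul_one, hbb, sub_self, sub_zero]
  have hbg : eb * eg = 0 := by rw [heg, mul_sub, mul_one, hbb, sub_self]
  have hgb : eg * eb = 0 := by rw [heg, sub_mul, one_mul, hbb, sub_self]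
  have hstm : st em = em := by rw [hem, map_sub, hstb, hstp]
  have hstg : st eg = eg := by rw [heg, map_sub, hone, hstb]
  -- `a` acts as `-1` on `em`
  have hX : (a + 1) * eb = ep + ep := by
    have h1 : a * ((a + 1) * eb) = (a + 1) * eb := by
      rw [← mul_assoc, mul_add, mul_one, add_mul, hab, add_mul, one_mul, add_comm]
    have h2 := EE_mul_of_fixed k hk a _ h1
    rw [← h2, ← hep, ← mul_assoc, mul_add, hpa, mul_one, add_mul, hpb]
  have ham : a * em = -em := by
    have h1 : a * eb = ep + ep - eb := by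
      rw [← hX, add_mul, one_mul, add_sub_cancel_right]
    rw [hem, mul_sub, h1, hap]
    abel
  have hcma : Commute a em := hcba.sub_right hcpa
  have hma : em * a = -em := by rw [← hcma.eq, ham]
  -- the commutative subring
  let S : Subring A := Subring.centralizer {y | Commute y a ∧ Commute y H}
  have hS : ∀ x, x ∈ S ↔ ∀ y, Commute y a → Commute y H → Commute y x := by
    intro x
    rw [Subring.mem_centralizer_iff]
    exact ⟨fun h y h1 h2 => h y ⟨h1, h2⟩, fun h y hy => h y hy.1 hy.2⟩
  have haS : a ∈ S := (hS a).2 fun y h1 _ => h1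
  have hHS : H ∈ S := (hS H).2 fun y _ h2 => h2
  have hH'S : H' ∈ S := (hS H').2 fun y _ h2 => commute_inv_right y H H' hHH' hH'H h2
  have hbS : eb ∈ S := (hS eb).2 fun y h1 _ => commute_EE k (a * a) y (h1.mul_right h1)
  have hgS : eg ∈ S := S.sub_mem S.one_mem hbS
  have hvS : v ∈ S := S.mul_mem haS
    ((hS _).2 fun y h1 _ => commute_WW k (a * a) y (h1.mul_right h1))
  have hcommS : ∀ x ∈ S, ∀ y ∈ S, x * y = y * x := by
    intro x hx y hy
    have h1 : Commute y a := ((hS y).1 hy a (Commute.refl a) hc).symm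
    have h2 : Commute y H := ((hS y).1 hy H (Eq.symm hc) (Commute.refl H)).symm
    exact ((hS x).1 hx y h1 h2).eq.symm
  have hstS : ∀ x ∈ S, st x ∈ S := by
    intro x hx
    rw [hS]
    intro y h1 h2
    have h3 : Commute (st y) a := by
      have h4 := congrArg st (commute_inv_right y a a' haa' ha'a h1).eq
      rw [hmul, hmul, hsta'] at h4
      exact h4.symm
    have h5 : Commute (st y) H := by
      have h4 := congrArg st h2.eq
      rw [hmul, hmul, hstH] at h4
      exact h4.symm
    have h6 := congrArg st ((hS x).1 hx (st y) h3 h5).eq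
    rw [hmul, hmul, hst2] at h6
    exact h6.symm
  have hav : (a - st a) * v = eg := by
    rw [hsta, hv, ← mul_assoc, sub_mul, ha'a, sub_one_mul_WW k hk (a * a) haak]
  obtain ⟨z, hzS, hz⟩ := good_part st hmul hone hst2 S hcommS hstS a H H' eg v haS hHS hH'S hgS hvS
    hstH hHH' hgg hstg hav
  rw [sub_mul, sub_eq_zero] at hz
  have P3 : Part st H a eg (z * eg) :=
    { idem := hgg
      ste := hstg
      left := by rw [← mul_assoc, hcommS eg hgS z hzS, mul_assoc, hgg]
      right := by rw [mul_assoc, hgg]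
      norm := by
        rw [hmul, hstg, ← hz, hcommS eg hgS _ (hstS z hzS), mul_assoc, ← mul_assoc eg,
          hcommS eg hgS z hzS, mul_assoc, hgg, mul_assoc]
      comm := hcommS a haS _ (S.mul_mem hzS hgS) }
  have hpH : ep * H = H * ep := (commute_EE k a H (Eq.symm hc)).eq.symm
  have hbH : eb * H = H * eb :=
    (commute_EE k (a * a) H (Commute.mul_right (Eq.symm hc) (Eq.symm hc))).eq.symm
  have hmH : em * H = H * em := by rw [hem, sub_mul, mul_sub, hpH, hbH]
  obtain ⟨Z1, h1l, h1r, h1n⟩ := hbad ep hpp hstp hpH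
  obtain ⟨Z2, h2l, h2r, h2n⟩ := hbad em hmm hstm hmH
  have P1 : Part st H a ep Z1 :=
    { idem := hpp
      ste := hstp
      left := h1l
      right := h1r
      norm := h1n
      comm := by
        calc a * Z1 = a * ep * Z1 := by rw [mul_assoc, h1l]
          _ = Z1 * (ep * a) := by rw [hap, h1l, hpa, h1r]
          _ = Z1 * a := by rw [← mul_assoc, h1r] }
  have P2 : Part st H a em Z2 :=
    { idem := hmm
      ste := hstm
      left := h2l
      right := h2r
      norm := h2n
      comm := by
        calc a * Z2 = a * em * Z2 := by rw [mul_assoc, h2l]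
          _ = Z2 * (em * a) := by rw [ham, neg_mul, h2l, hma, mul_neg, h2r]
          _ = Z2 * a := by rw [← mul_assoc, h2r] }
  have P12 := P1.add st hmul P2 hpm hmp
  have hsum : ep + em = eb := by rw [hem]; abel
  rw [hsum] at P12
  have P := P12.add st hmul P3 hbg hgb
  have hsum2 : eb + eg = 1 := by rw [heg]; abel
  rw [hsum2] at P
  exact ⟨_, by rw [P.norm, mul_one], P.comm⟩

end assemble

end Cfsg.Agent.Lib.Helper48Good
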