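import Mathlib

set_option autoImplicit false

namespace Cfsg.Agent.Lib.Helper48Cayley

variable {R F : Type*} [CommRing R] [Field F]

section
variable (σ : R →+* R) (ε : R →+* F)

theorem eps_skew (hεσ : ∀ r, ε (σ r) = ε r) (h2 : (2 : F) ≠ 0) (y : R) (hy : σ y = -y) :
    ε y = 0 := by
  have h1 := hεσ y
  rw [hy, map_neg] at h1
  have h3 : (2 : F) * ε y = 0 := by linear_combination -h1
  rcases mul_eq_zero.1 h3 with h | h
  · exact absurd h h2
  · exact h

theorem eps_unitary (hεσ : ∀ r, ε (σ r) = ε r) (c : R) (hc : σ c * c = 1) :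
    ε c = 1 ∨ ε c = -1 := by
  have h1 := congrArg ε hc
  rw [map_mul, hεσ, map_one] at h1
  have h3 : (ε c - 1) * (ε c + 1) = 0 := by linear_combination h1
  rcases mul_eq_zero.1 h3 with h | h
  · left; linear_combination h
  · right; linear_combination h

theorem cay_mem (y d : R) (hy : σ y = -y) (hd : (1 + y) * d = 1) :
    σ ((1 - y) * d) * ((1 - y) * d) = 1 := by
  have h1 := congrArg σ hd
  simp only [map_mul, map_add, map_one, hy] at h1
  simp only [map_mul, map_sub, map_one, hy]
  linear_combination (1 + y) * d * h1 + hd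

theorem cay_skew (c d : R) (hc : σ c * c = 1) (hd : (1 + c) * d = 1) :
    σ ((1 - c) * d) = -((1 - c) * d) := by
  have h1 := congrArg σ hd
  simp only [map_mul, map_add, map_one] at h1
  simp only [map_mul, map_sub, map_one]
  linear_combination (-(1 - σ c) * σ d) * hd + (-(1 - c) * d) * h1 + (-2 * d * σ d) * hc

/-- the number of unitary elements is twice the number of skew elements (Cayley transform) -/
theorem card_unitary [Finite R] (hεσ : ∀ r, ε (σ r) = ε r) (hunit : ∀ r, ε r ≠ 0 → IsUnit r)
    (h2 : (2 : F) ≠ 0) :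
    Nat.card {c : R // σ c * c = 1} = 2 * Nat.card {y : R // σ y = -y} := by
  classical
  have hne : (1 : F) ≠ -1 := by
    intro h
    apply h2
    linear_combination h
  have hu : ∀ y : {y : R // σ y = -y}, (1 + y.1) * Ring.inverse (1 + y.1) = 1 := by
    intro y
    apply Ring.mul_inverse_cancel
    apply hunit
    rw [map_add, map_one, eps_skew σ ε hεσ h2 y.1 y.2, add_zero]
    exact one_ne_zero
  let cay : {y : R // σ y = -y} → R := fun y => (1 - y.1) * Ring.inverse (1 + y.1)
  have hcay : ∀ y, σ (cay y) * cay y = 1 := fun y => cay_mem σ y.1 _ y.2 (hu y)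
  have hεcay : ∀ y, ε (cay y) = 1 := by
    intro y
    have h1 := congrArg ε (hu y)
    have h0 := eps_skew σ ε hεσ h2 y.1 y.2
    simp only [map_mul, map_add, map_one, h0, add_zero, one_mul] at h1
    simp only [cay, map_mul, map_sub, map_one, h0, sub_zero, one_mul, h1]
  have hrel : ∀ y, y.1 * (1 + cay y) = 1 - cay y := by
    intro y
    simp only [cay]
    linear_combination (1 - y.1) * hu y
  let sgn : Bool → R := fun b => if b then 1 else -1
  have hsgn : ∀ b, sgn b * sgn b = 1 := by
    intro b; cases b <;> simp [sgn]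
  have hσsgn : ∀ b, σ (sgn b) = sgn b := by
    intro b; cases b <;> simp [sgn]
  let f : Bool × {y : R // σ y = -y} → {c : R // σ c * c = 1} := fun x =>
    ⟨sgn x.1 * cay x.2, by
      rw [map_mul, hσsgn]
      linear_combination (sgn x.1 * sgn x.1) * hcay x.2 + hsgn x.1⟩
  have hf : Function.Bijective f := by
    constructor
    · rintro ⟨b, y⟩ ⟨b', y'⟩ h
      have h1 : sgn b * cay y = sgn b' * cay y' := congrArg Subtype.val h
      have h3 : ε (sgn b) * ε (cay y) = ε (sgn b') * ε (cay y') := by
        rw [← map_mul, ← map_mul, h1]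
      rw [hεcay, hεcay, mul_one, mul_one] at h3
      have hb : b = b' := by
        cases b <;> cases b' <;> simp [sgn] at h3 ⊢
        · exact hne h3.symm
        · exact hne h3
      subst hb
      have h4 : cay y = cay y' := by
        have := congrArg (fun z => sgn b * z) h1
        simp only [← mul_assoc, hsgn, one_mul] at this
        exact this
      have h5 : IsUnit (1 + cay y) := by
        apply hunit
        rw [map_add, map_one, hεcay]
        intro h; apply h2; linear_combination h
      have h6 : y.1 * (1 + cay y) = y'.1 * (1 + cay y) := by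
        rw [hrel y, h4, hrel y']
      have h7 := h5.mul_right_cancel h6
      rw [Prod.mk.injEq]
      exact ⟨rfl, Subtype.ext h7⟩
    · have key : ∀ c : R, σ c * c = 1 → ε c = 1 → ∃ y, cay y = c := by
        intro c hc hε
        have h5 : IsUnit (1 + c) := by
          apply hunit
          rw [map_add, map_one, hε]
          intro h; apply h2; linear_combination h
        have hd := Ring.mul_inverse_cancel _ h5
        set d := Ring.inverse (1 + c) with hddef
        refine ⟨⟨(1 - c) * d, cay_skew σ c d hc hd⟩, ?_⟩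
        have h6 := hu ⟨(1 - c) * d, cay_skew σ c d hc hd⟩
        simp only [cay]
        simp only at h6
        set e := Ring.inverse (1 + (1 - c) * d) with hedef
        linear_combination c * h6 - e * (1 - c) * hd
      rintro ⟨c, hc⟩
      rcases eps_unitary σ ε hεσ c hc with h | h
      · obtain ⟨y, hy⟩ := key c hc h
        exact ⟨(true, y), Subtype.ext (by simp [f, sgn, hy])⟩
      · obtain ⟨y, hy⟩ := key (-c) (by rw [map_neg]; linear_combination hc)
          (by rw [map_neg, h, neg_neg])
        exact ⟨(false, y), Subtype.ext (by simp [f, sgn, hy])⟩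
  rw [← Nat.card_congr (Equiv.ofBijective f hf), Nat.card_prod, Nat.card_eq_fintype_card,
    Fintype.card_bool]

end


section
variable (σ : R →+* R) (ε : R →+* F)

/-- symmetric elements with `ε = 1` have symmetric square roots -/
theorem exists_sqrt [Finite R] (hunit : ∀ r, ε r ≠ 0 → IsUnit r)
    (h2 : (2 : F) ≠ 0) (h : R) (hh : σ h = h) (hε : ε h = 1) :
    ∃ w, σ w = w ∧ ε w = 1 ∧ w * w = h := by
  let sq : {w : R // σ w = w ∧ ε w = 1} → {w : R // σ w = w ∧ ε w = 1} := fun w =>
    ⟨w.1 * w.1, by rw [map_mul, w.2.1], by rw [map_mul, w.2.2, mul_one]⟩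
  have hinj : Function.Injective sq := by
    intro w w' hww
    have h1 : w.1 * w.1 = w'.1 * w'.1 := congrArg Subtype.val hww
    have h3 : IsUnit (w.1 + w'.1) := by
      apply hunit
      rw [map_add, w.2.2, w'.2.2]
      intro h; apply h2; linear_combination h
    have h4 : (w.1 - w'.1) * (w.1 + w'.1) = 0 * (w.1 + w'.1) := by linear_combination h1
    have h5 := h3.mul_right_cancel h4
    exact Subtype.ext (sub_eq_zero.1 h5)
  obtain ⟨w, hw⟩ := (Finite.injective_iff_surjective.1 hinj) ⟨h, hh, hε⟩
  exact ⟨w.1, w.2.1, w.2.2, congrArg Subtype.val hw⟩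

theorem exists_norm [Finite R] [Algebra F R] (hunit : ∀ r, ε r ≠ 0 → IsUnit r)
    (h2 : (2 : F) ≠ 0) (hσa : ∀ a, σ (algebraMap F R a) = algebraMap F R a)
    (hεa : ∀ a, ε (algebraMap F R a) = a) (h : R) (hh : σ h = h) (e : F) (he0 : e ≠ 0)
    (he : ε h = e * e) : ∃ z, σ z * z = h := by
  obtain ⟨w, hw1, -, hw3⟩ := exists_sqrt σ ε hunit h2 (algebraMap F R (e⁻¹ * e⁻¹) * h)
    (by rw [map_mul, hσa, hh]) (by rw [map_mul, hεa, he]; field_simp)
  refine ⟨algebraMap F R e * w, ?_⟩
  rw [map_mul, hσa, hw1]
  have h3 : algebraMap F R e * algebraMap F R e * algebraMap F R (e⁻¹ * e⁻¹) = 1 := by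
    rw [← map_mul, ← map_mul, ← map_one (algebraMap F R)]
    congr 1
    field_simp
  linear_combination (algebraMap F R e * algebraMap F R e) * hw3 + h * h3

end

end Cfsg.Agent.Lib.Helper48Cayley
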