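import Mathlib

set_option autoImplicit false

namespace Cfsg.Agent.Lib.Helper48RegNil

open Module

variable {K V : Type*} [Field K] [AddCommGroup V] [Module K V] [FiniteDimensional K V]

theorem finrank_ker_comp_le (f g : V →ₗ[K] V) :
    finrank K (LinearMap.ker (f ∘ₗ g)) ≤ finrank K (LinearMap.ker g) + finrank K (LinearMap.ker f) := by
  set p := LinearMap.ker (f ∘ₗ g) with hp
  set h : p →ₗ[K] V := g.domRestrict p with hh
  have h1 := LinearMap.finrank_range_add_finrank_ker h
  have h2 : finrank K (LinearMap.range h) ≤ finrank K (LinearMap.ker f) := by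
    apply Submodule.finrank_mono
    rintro _ ⟨x, rfl⟩
    have : (x : V) ∈ LinearMap.ker (f ∘ₗ g) := x.2
    rw [LinearMap.mem_ker] at this
    exact this
  have h3 : finrank K (LinearMap.ker h) ≤ finrank K (LinearMap.ker g) := by
    have hle : LinearMap.ker g ≤ p := by
      intro x hx
      rw [hp, LinearMap.mem_ker, LinearMap.comp_apply, LinearMap.mem_ker.mp hx, map_zero]
    have : LinearMap.ker h = Submodule.comap p.subtype (LinearMap.ker g) := by
      ext x
      simp [hh, LinearMap.mem_ker]
    rw [this]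
    exact le_of_eq (LinearEquiv.finrank_eq (Submodule.comapSubtypeEquivOfLe hle))
  omega

theorem finrank_ker_pow_add_le (N : End K V) (a b : ℕ) :
    finrank K (LinearMap.ker (N ^ (a + b))) ≤
      finrank K (LinearMap.ker (N ^ a)) + finrank K (LinearMap.ker (N ^ b)) := by
  have := finrank_ker_comp_le (N ^ b) (N ^ a)
  rw [add_comm a b, pow_add]
  exact this

theorem finrank_ker_pow_le (N : End K V) (hker : finrank K (LinearMap.ker N) ≤ 1) (k : ℕ) :
    finrank K (LinearMap.ker (N ^ k)) ≤ k := by
  induction k with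
  | zero =>
    have : LinearMap.ker (N ^ 0) = ⊥ := by
      rw [pow_zero]; exact LinearMap.ker_id
    rw [this]; simp
  | succ k ih =>
    have := finrank_ker_pow_add_le N k 1
    rw [pow_one] at this
    omega

theorem finrank_ker_pow_eq (N : End K V) (hker : finrank K (LinearMap.ker N) ≤ 1)
    (hnil : N ^ finrank K V = 0) (k : ℕ) (hk : k ≤ finrank K V) :
    finrank K (LinearMap.ker (N ^ k)) = k := by
  have h1 := finrank_ker_pow_le N hker k
  have h2 := finrank_ker_pow_le N hker (finrank K V - k)
  have h3 := finrank_ker_pow_add_le N k (finrank K V - k)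
  rw [Nat.add_sub_cancel' hk, hnil, LinearMap.ker_zero, finrank_top] at h3
  omega

theorem invariant_le_ker (N : End K V) {n : ℕ} (hnil : N ^ n = 0) (W : Submodule K V)
    (hW : ∀ v ∈ W, N v ∈ W) : W ≤ LinearMap.ker (N ^ finrank K W) := by
  set f : End K W := N.restrict hW with hf
  have hpow : ∀ (j : ℕ) (w : W), ((f ^ j) w : V) = (N ^ j) w := by
    intro j
    induction j with
    | zero => intro w; simp
    | succ j ih =>
      intro w
      rw [pow_succ', pow_succ', Module.End.mul_apply, Module.End.mul_apply, ← ih]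
      rfl
  have h1 : LinearMap.ker (f ^ n) = ⊤ := by
    rw [eq_top_iff]
    intro w _
    rw [LinearMap.mem_ker]
    apply Subtype.ext
    rw [hpow, hnil]; rfl
  have h2 := Module.End.ker_pow_le_ker_pow_finrank f n
  rw [h1, top_le_iff] at h2
  intro w hw
  have : (⟨w, hw⟩ : W) ∈ LinearMap.ker (f ^ finrank K W) := by rw [h2]; trivial
  rw [LinearMap.mem_ker] at this ⊢
  have h3 := hpow (finrank K W) ⟨w, hw⟩
  rw [this] at h3
  exact h3.symm

theorem invariant_eq_ker (N : End K V) (hker : finrank K (LinearMap.ker N) ≤ 1)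
    (hnil : N ^ finrank K V = 0) (W : Submodule K V)
    (hW : ∀ v ∈ W, N v ∈ W) : W = LinearMap.ker (N ^ finrank K W) := by
  apply Submodule.eq_of_le_of_finrank_eq (invariant_le_ker N hnil W hW)
  rw [finrank_ker_pow_eq N hker hnil _ (Submodule.finrank_le W)]

section Mat

variable {ι : Type*} [Fintype ι] [DecidableEq ι]

theorem mulVecLin_pow (M : Matrix ι ι K) (k : ℕ) :
    Matrix.mulVecLin (M ^ k) = (Matrix.mulVecLin M : End K (ι → K)) ^ k := by
  induction k with
  | zero => simp [Module.End.one_eq_id]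
  | succ k ih => rw [pow_succ, pow_succ, Matrix.mulVecLin_mul, ih]; rfl

omit [DecidableEq ι] in
theorem matrix_ker_le_one (M : Matrix ι ι K) (h : M.rank = Fintype.card ι - 1) :
    finrank K (LinearMap.ker M.mulVecLin) ≤ 1 := by
  have h1 := LinearMap.finrank_range_add_finrank_ker M.mulVecLin
  rw [Module.finrank_fintype_fun_eq_card] at h1
  have h2 : finrank K (LinearMap.range M.mulVecLin) = Fintype.card ι - 1 := h
  omega

theorem matrix_invariant_eq_ker (u : Matrix ι ι K) (hnil : (u - 1) ^ Fintype.card ι = 0)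
    (hreg : (u - 1).rank = Fintype.card ι - 1) (W : Submodule K (ι → K))
    (hW : ∀ v ∈ W, u.mulVec v ∈ W) :
    W = LinearMap.ker (Matrix.mulVecLin ((u - 1) ^ finrank K W)) := by
  rw [mulVecLin_pow]
  have h1 : (Matrix.mulVecLin (u - 1) : End K (ι → K)) ^ finrank K (ι → K) = 0 := by
    rw [Module.finrank_fintype_fun_eq_card, ← mulVecLin_pow, hnil]; simp
  have h2 : ∀ v ∈ W, (Matrix.mulVecLin (u - 1) : End K (ι → K)) v ∈ W := by
    intro v hv
    rw [Matrix.mulVecLin_apply, Matrix.sub_mulVec, Matrix.one_mulVec]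
    exact W.sub_mem (hW v hv) hv
  exact invariant_eq_ker (Matrix.mulVecLin (u - 1) : End K (ι → K)) (matrix_ker_le_one _ hreg) h1 W h2

end Mat

end Cfsg.Agent.Lib.Helper48RegNil
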