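import Mathlib
import Cfsg.Agent.Lib.Helper48RegNil

set_option autoImplicit false

namespace Cfsg.Agent.Lib.Helper48Cyclic

open Module Cfsg.Agent.Lib.Helper48RegNil

variable {K V : Type*} [Field K] [AddCommGroup V] [Module K V] [FiniteDimensional K V]

theorem exists_cyclic (N : End K V) (hker : finrank K (LinearMap.ker N) ≤ 1)
    (hnil : N ^ finrank K V = 0) (hn : 1 ≤ finrank K V) :
    ∃ v, (N ^ (finrank K V - 1)) v ≠ 0 := by
  by_contra h
  push Not at h
  have h1 : LinearMap.ker (N ^ (finrank K V - 1)) = ⊤ := by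
    rw [eq_top_iff]; intro x _; exact h x
  have h2 := finrank_ker_pow_eq N hker hnil (finrank K V - 1) (by omega)
  rw [h1, finrank_top] at h2
  omega

theorem span_pow_eq_top (N : End K V) {n : ℕ} (hV : finrank K V = n) (hnil : N ^ n = 0) (v : V)
    (hv : (N ^ (n - 1)) v ≠ 0) :
    Submodule.span K (Set.range fun i : Fin n => (N ^ (i : ℕ)) v) = ⊤ := by
  have hn : 1 ≤ n := by
    by_contra h
    have h0 : finrank K V = 0 := by omega
    have := Module.finrank_zero_iff.mp h0
    exact hv (Subsingleton.elim _ _)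
  set W := Submodule.span K (Set.range fun i : Fin n => (N ^ (i : ℕ)) v) with hW
  have hinv : ∀ x ∈ W, N x ∈ W := by
    intro x hx
    induction hx using Submodule.span_induction with
    | mem x hx =>
      obtain ⟨i, rfl⟩ := hx
      by_cases hi : (i : ℕ) + 1 < n
      · apply Submodule.subset_span
        refine ⟨⟨i + 1, hi⟩, ?_⟩
        simp only [pow_succ', Module.End.mul_apply]
      · have : (i : ℕ) + 1 = n := by have := i.2; omega
        have h2 : N ((N ^ (i : ℕ)) v) = (N ^ ((i : ℕ) + 1)) v := by
          rw [pow_succ', Module.End.mul_apply]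
        have h3 : N ((N ^ (i : ℕ)) v) = 0 := by
          rw [h2, this, hnil]; rfl
        simp only [h3]
        exact W.zero_mem
    | zero => rw [map_zero]; exact W.zero_mem
    | add x y _ _ hx hy => rw [map_add]; exact W.add_mem hx hy
    | smul a x _ hx => rw [map_smul]; exact W.smul_mem a hx
  have hle := invariant_le_ker N hnil W hinv
  have hvW : v ∈ W := by
    apply Submodule.subset_span
    exact ⟨⟨0, hn⟩, by simp⟩
  have h0 := hle hvW
  rw [LinearMap.mem_ker] at h0
  apply Submodule.eq_top_of_finrank_eq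
  have h1 := Submodule.finrank_le W
  by_contra hne
  have hlt : finrank K W ≤ n - 1 := by omega
  apply hv
  obtain ⟨d, hd⟩ := Nat.exists_eq_add_of_le hlt
  rw [hd, add_comm, pow_add, Module.End.mul_apply, h0, map_zero]

/-- the basis `v, N v, ...` -/
noncomputable def cycBasis (N : End K V) {n : ℕ} (hV : finrank K V = n) (hnil : N ^ n = 0) (v : V)
    (hv : (N ^ (n - 1)) v ≠ 0) : Basis (Fin n) K V :=
  basisOfTopLeSpanOfCardEqFinrank (fun i : Fin n => (N ^ (i : ℕ)) v)
    (span_pow_eq_top N hV hnil v hv).ge (by rw [Fintype.card_fin, hV])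

theorem cycBasis_apply (N : End K V) {n : ℕ} (hV : finrank K V = n) (hnil : N ^ n = 0) (v : V)
    (hv : (N ^ (n - 1)) v ≠ 0) (i : Fin n) : cycBasis N hV hnil v hv i = (N ^ (i : ℕ)) v := by
  simp [cycBasis]

/-- polynomial in `N` with coefficient vector `a` -/
noncomputable def psi (N : End K V) {n : ℕ} (a : Fin n → K) : End K V := ∑ i, a i • N ^ (i : ℕ)

omit [FiniteDimensional K V] in
theorem psi_comm (N : End K V) {n : ℕ} (a : Fin n → K) : Commute (psi N a) N := by
  unfold psi
  apply Commute.sum_left
  intro i _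
  exact ((Commute.refl N).pow_left _).smul_left _

theorem psi_apply (N : End K V) {n : ℕ} (hV : finrank K V = n) (hnil : N ^ n = 0) (v : V)
    (hv : (N ^ (n - 1)) v ≠ 0) (a : Fin n → K) :
    psi N a v = ∑ i, a i • cycBasis N hV hnil v hv i := by
  simp [psi, cycBasis_apply, LinearMap.sum_apply]

theorem psi_injective (N : End K V) {n : ℕ} (hV : finrank K V = n) (hnil : N ^ n = 0) (v : V)
    (hv : (N ^ (n - 1)) v ≠ 0) : Function.Injective (psi N (n := n)) := by
  intro a a' h
  have h1 := congrArg (fun g : End K V => g v) h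
  simp only [psi_apply N hV hnil v hv] at h1
  have h2 : ⇑((cycBasis N hV hnil v hv).repr (∑ i, a i • cycBasis N hV hnil v hv i)) =
      ⇑((cycBasis N hV hnil v hv).repr (∑ i, a' i • cycBasis N hV hnil v hv i)) := by rw [h1]
  rwa [Basis.repr_sum_self, Basis.repr_sum_self] at h2

theorem eq_psi_of_comm (N : End K V) {n : ℕ} (hV : finrank K V = n) (hnil : N ^ n = 0) (v : V)
    (hv : (N ^ (n - 1)) v ≠ 0) (g : End K V) (hg : Commute g N) :
    g = psi N (fun i => (cycBasis N hV hnil v hv).repr (g v) i) := by
  set b := cycBasis N hV hnil v hv with hb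
  set a : Fin n → K := fun i => b.repr (g v) i with ha
  have h1 : psi N a v = g v := by
    rw [psi_apply N hV hnil v hv]
    exact b.sum_repr (g v)
  apply b.ext
  intro j
  rw [hb, cycBasis_apply]
  have c1 : g ((N ^ (j : ℕ)) v) = (N ^ (j : ℕ)) (g v) := by
    have := (hg.pow_right (j : ℕ)).eq
    exact congrArg (fun f : End K V => f v) this
  have c2 : psi N a ((N ^ (j : ℕ)) v) = (N ^ (j : ℕ)) (psi N a v) := by
    have := ((psi_comm N a).pow_right (j : ℕ)).eq
    exact congrArg (fun f : End K V => f v) this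
  rw [c1, c2, h1]

theorem psi_isUnit_iff (N : End K V) {n : ℕ} (hV : finrank K V = n.succ) (hnil : N ^ n.succ = 0) (v : V)
    (hv : (N ^ n) v ≠ 0) (a : Fin n.succ → K) : IsUnit (psi N a) ↔ a 0 ≠ 0 := by
  have hsplit : psi N a = a 0 • 1 + N * ∑ i : Fin n, a i.succ • N ^ (i : ℕ) := by
    unfold psi
    rw [Fin.sum_univ_succ, Finset.mul_sum]
    congr 1
    apply Finset.sum_congr rfl
    intro i _
    rw [Fin.val_succ, pow_succ', mul_smul_comm]
  constructor
  · intro hu h0
    have hinj : Function.Injective (psi N a) := by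
      rw [Module.End.isUnit_iff] at hu
      exact hu.injective
    apply hv
    apply hinj
    rw [map_zero, hsplit, h0, zero_smul, zero_add]
    have hc : Commute N (∑ i : Fin n, a i.succ • N ^ (i : ℕ)) := by
      apply Commute.sum_right
      intro i _
      exact ((Commute.refl N).pow_right _).smul_right _
    rw [hc.eq, Module.End.mul_apply, ← Module.End.mul_apply N, ← pow_succ', hnil]
    simp
  · intro h0
    rw [hsplit]
    apply IsNilpotent.isUnit_add_left_of_commute
    · have hc : Commute N (∑ i : Fin n, a i.succ • N ^ (i : ℕ)) := by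
        apply Commute.sum_right
        intro i _
        exact ((Commute.refl N).pow_right _).smul_right _
      exact hc.isNilpotent_mul_right ⟨n.succ, hnil⟩
    · rw [← Algebra.algebraMap_eq_smul_one]; exact (IsUnit.mk0 _ h0).map _
    · exact (Commute.one_right _).smul_right _

end Cfsg.Agent.Lib.Helper48Cyclic
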