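import Mathlib

set_option autoImplicit false

namespace Cfsg.Agent.Lib.Helper48Trunc

open Polynomial Module

variable (F : Type*) [Field F] (n : ℕ)

/-- truncated polynomial ring -/
abbrev RR := AdjoinRoot (X ^ n : F[X])

/-- the generator -/
noncomputable abbrev xx : RR F n := AdjoinRoot.root (X ^ n : F[X])

theorem xx_pow : (xx F n) ^ n = 0 := by
  have h := AdjoinRoot.mk_self (f := (X ^ n : F[X]))
  rwa [map_pow, AdjoinRoot.mk_X] at h

/-- `x ↦ -x` -/
noncomputable def sig : RR F n →ₐ[F] RR F n :=
  AdjoinRoot.liftAlgHom _ (Algebra.ofId F (RR F n)) (-(xx F n)) (by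
    rw [eval₂_pow, eval₂_X, neg_pow, xx_pow, mul_zero])

@[simp] theorem sig_xx : sig F n (xx F n) = -(xx F n) := AdjoinRoot.liftAlgHom_root _ _ _ _

theorem sig_sig (r : RR F n) : sig F n (sig F n r) = r := by
  have h : (sig F n).comp (sig F n) = AlgHom.id F (RR F n) := by
    apply AdjoinRoot.algHom_ext
    simp
  exact congrArg (fun f : RR F n →ₐ[F] RR F n => f r) h

/-- the constant term -/
noncomputable def eps (hn : n ≠ 0) : RR F n →ₐ[F] F :=
  AdjoinRoot.liftAlgHom _ (Algebra.ofId F F) 0 (by
    rw [eval₂_pow, eval₂_X, zero_pow hn])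

@[simp] theorem eps_xx (hn : n ≠ 0) : eps F n hn (xx F n) = 0 := AdjoinRoot.liftAlgHom_root _ _ _ _

theorem eps_sig (hn : n ≠ 0) (r : RR F n) : eps F n hn (sig F n r) = eps F n hn r := by
  have h : (eps F n hn).comp (sig F n) = eps F n hn := by
    apply AdjoinRoot.algHom_ext
    simp
  exact congrArg (fun f : RR F n →ₐ[F] F => f r) h

theorem isUnit_of_eps (hn : n ≠ 0) (r : RR F n) (hr : eps F n hn r ≠ 0) : IsUnit r := by
  induction r using AdjoinRoot.induction_on with
  | ih p =>
    have h1 : AdjoinRoot.mk (X ^ n : F[X]) p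
        = algebraMap F (RR F n) (p.coeff 0) + AdjoinRoot.mk _ p.divX * xx F n := by
      conv_lhs => rw [← Polynomial.divX_mul_X_add p]
      rw [map_add, map_mul, AdjoinRoot.mk_X, AdjoinRoot.mk_C, add_comm]
      rfl
    have h2 : eps F n hn (AdjoinRoot.mk (X ^ n : F[X]) p) = p.coeff 0 := by
      rw [h1, map_add, map_mul, eps_xx, mul_zero, add_zero, AlgHom.commutes]
      rfl
    rw [h2] at hr
    rw [h1]
    apply IsNilpotent.isUnit_add_left_of_commute
    · exact (Commute.all _ _).isNilpotent_mul_left ⟨n, xx_pow F n⟩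
    · exact (IsUnit.mk0 _ hr).map _
    · exact Commute.all _ _

/-- the monomial basis -/
noncomputable def bb : Basis (Fin n) F (RR F n) :=
  (AdjoinRoot.powerBasis' (monic_X_pow n)).basis.reindex (finCongr (natDegree_X_pow n))

theorem bb_apply (i : Fin n) : bb F n i = (xx F n) ^ (i : ℕ) := by
  unfold bb
  rw [Basis.reindex_apply, PowerBasis.basis_eq_pow]
  rfl

theorem finite_RR [Finite F] : Finite (RR F n) := by
  have : Module.Finite F (RR F n) := (monic_X_pow n).finite_adjoinRoot
  exact Module.finite_of_finite F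

theorem sig_repr (y : RR F n) (i : Fin n) :
    (bb F n).repr (sig F n y) i = (-1) ^ (i : ℕ) * (bb F n).repr y i := by
  have h1 : sig F n y = ∑ j : Fin n, ((-1) ^ (j : ℕ) * (bb F n).repr y j) • bb F n j := by
    conv_lhs => rw [← (bb F n).sum_repr y]
    rw [map_sum]
    apply Finset.sum_congr rfl
    intro j _
    rw [map_smul, bb_apply, map_pow, sig_xx, neg_pow, mul_smul, smul_comm]
    congr 1
    rw [Algebra.smul_def, map_pow, map_neg, map_one]
  rw [h1, Basis.repr_sum_self]

theorem card_prod_odd (q m : ℕ) :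
    ∏ i : Fin (2 * m), (if Even (i : ℕ) then 1 else q) = q ^ m := by
  rw [Fin.prod_univ_eq_prod_range (fun i => if Even i then 1 else q) (2 * m)]
  induction m with
  | zero => simp
  | succ k ih =>
    rw [show 2 * (k + 1) = 2 * k + 1 + 1 by ring, Finset.prod_range_succ, Finset.prod_range_succ, ih]
    have h1 : Even (2 * k) := even_two_mul k
    have h2 : ¬ Even (2 * k + 1) := by
      rw [Nat.not_even_iff_odd]; exact odd_two_mul_add_one k
    rw [if_pos h1, if_neg h2, mul_one, pow_succ]

theorem card_skew [Fintype F] (h2 : (2 : F) ≠ 0) (m : ℕ) :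
    Nat.card {y : RR F (2 * m) // sig F (2 * m) y = -y} = Fintype.card F ^ m := by
  classical
  have e : {y : RR F (2 * m) // sig F (2 * m) y = -y} ≃
      {a : Fin (2 * m) → F // a ∈ Fintype.piFinset
        (fun i : Fin (2 * m) => if Even (i : ℕ) then ({0} : Finset F) else Finset.univ)} := by
    refine Equiv.subtypeEquiv (bb F (2 * m)).equivFun.toEquiv ?_
    intro y
    rw [Fintype.mem_piFinset]
    constructor
    · intro hy i
      by_cases hi : Even (i : ℕ)
      · rw [if_pos hi, Finset.mem_singleton]
        have h1 := sig_repr F (2 * m) y i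
        rw [hy, hi.neg_one_pow, one_mul, map_neg] at h1
        have h3 : (2 : F) * (bb F (2 * m)).repr y i = 0 := by
          have h4 : -((bb F (2 * m)).repr y i) = (bb F (2 * m)).repr y i := h1
          linear_combination -h4
        rcases mul_eq_zero.1 h3 with h | h
        · exact absurd h h2
        · exact h
      · rw [if_neg hi]; exact Finset.mem_univ _
    · intro hy
      apply (bb F (2 * m)).repr.injective
      ext i
      rw [sig_repr, map_neg]
      by_cases hi : Even (i : ℕ)
      · have h1 := hy i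
        rw [if_pos hi, Finset.mem_singleton] at h1
        have h3 : (bb F (2 * m)).repr y i = 0 := h1
        simp [h3]
      · rw [(Nat.not_even_iff_odd.1 hi).neg_one_pow]
        simp
  rw [Nat.card_congr e, Nat.card_eq_fintype_card, Fintype.card_coe, Fintype.card_piFinset,
    ← card_prod_odd]
  apply Finset.prod_congr rfl
  intro i _
  by_cases hi : Even (i : ℕ)
  · simp [hi]
  · simp [hi]

end Cfsg.Agent.Lib.Helper48Trunc
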