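import Mathlib
import Cfsg.Agent.Lib.Helper48Trunc
import Cfsg.Agent.Lib.Helper48Cyclic

set_option autoImplicit false

namespace Cfsg.Agent.Lib.Helper48TruncRep

open Polynomial Module Cfsg.Agent.Lib.Helper48Trunc Cfsg.Agent.Lib.Helper48Cyclic

section general
variable {F : Type*} [Field F] {n : ℕ} {A : Type*} [Ring A] [Algebra F A]

/-- evaluation of truncated polynomials at a nilpotent element -/
noncomputable def Lam (t : A) (ht : t ^ n = 0) : RR F n →ₐ[F] A :=
  Ideal.Quotient.liftₐ (Ideal.span {(X ^ n : F[X])}) (aeval t) (by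
    intro a ha
    obtain ⟨b, rfl⟩ := Ideal.mem_span_singleton.1 ha
    rw [map_mul, map_pow, aeval_X, ht, zero_mul])

theorem Lam_mk (t : A) (ht : t ^ n = 0) (p : F[X]) :
    Lam t ht (AdjoinRoot.mk (X ^ n : F[X]) p) = aeval t p := rfl

@[simp] theorem Lam_xx (t : A) (ht : t ^ n = 0) : Lam t ht (xx F n) = t := by
  have h : xx F n = AdjoinRoot.mk (X ^ n : F[X]) X := AdjoinRoot.mk_X.symm
  rw [h, Lam_mk, aeval_X]

theorem star_pow (st : A →ₗ[F] A) (hmul : ∀ a b, st (a * b) = st b * st a) (hone : st 1 = 1)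
    (a : A) (k : ℕ) : st (a ^ k) = (st a) ^ k := by
  induction k with
  | zero => simpa using hone
  | succ k ih => rw [pow_succ, hmul, ih, pow_succ']

theorem star_aeval (st : A →ₗ[F] A) (hmul : ∀ a b, st (a * b) = st b * st a) (hone : st 1 = 1)
    (a : A) (p : F[X]) : st (aeval a p) = aeval (st a) p := by
  induction p using Polynomial.induction_on' with
  | add p q hp hq => rw [map_add, map_add, map_add, hp, hq]
  | monomial k c =>
    rw [aeval_monomial, aeval_monomial, ← Algebra.smul_def, ← Algebra.smul_def, map_smul,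
      star_pow st hmul hone]

theorem star_Lam (st : A →ₗ[F] A) (hmul : ∀ a b, st (a * b) = st b * st a) (hone : st 1 = 1)
    (t : A) (ht : t ^ n = 0) (hst : st t = -t) (r : RR F n) :
    st (Lam t ht r) = Lam t ht (sig F n r) := by
  induction r using AdjoinRoot.induction_on with
  | ih p =>
    rw [Lam_mk, star_aeval st hmul hone, hst, ← AdjoinRoot.aeval_eq, ← aeval_algHom_apply,
      ← aeval_algHom_apply, sig_xx, map_neg, Lam_xx]

theorem Lam_eq_sum (t : A) (ht : t ^ n = 0) (r : RR F n) :
    Lam t ht r = ∑ i, (bb F n).repr r i • t ^ (i : ℕ) := by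
  conv_lhs => rw [← (bb F n).sum_repr r]
  rw [map_sum]
  apply Finset.sum_congr rfl
  intro i _
  rw [map_smul, bb_apply, map_pow, Lam_xx]

end general

section endo
variable {K V : Type*} [Field K] [AddCommGroup V] [Module K V] [FiniteDimensional K V]

omit [FiniteDimensional K V] in
theorem Lam_eq_psi (t : End K V) {n : ℕ} (ht : t ^ n = 0) (r : RR K n) :
    Lam t ht r = psi t (fun i => (bb K n).repr r i) := Lam_eq_sum t ht r

theorem Lam_injective (t : End K V) {n : ℕ} (hV : finrank K V = n) (ht : t ^ n = 0)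
    (hker : finrank K (LinearMap.ker t) ≤ 1) (hn : 1 ≤ n) :
    Function.Injective (Lam (F := K) t ht) := by
  obtain ⟨v, hv⟩ := exists_cyclic t hker (by rw [hV]; exact ht) (by omega)
  rw [hV] at hv
  intro r s h
  rw [Lam_eq_psi, Lam_eq_psi] at h
  have h1 := psi_injective t hV ht v hv h
  apply (bb K n).repr.injective
  ext i
  exact congrFun h1 i

theorem exists_Lam_eq (t : End K V) {n : ℕ} (hV : finrank K V = n) (ht : t ^ n = 0)
    (hker : finrank K (LinearMap.ker t) ≤ 1) (hn : 1 ≤ n) (g : End K V) (hg : Commute g t) :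
    ∃ r, Lam (F := K) t ht r = g := by
  obtain ⟨v, hv⟩ := exists_cyclic t hker (by rw [hV]; exact ht) (by omega)
  rw [hV] at hv
  have h1 := eq_psi_of_comm t hV ht v hv g hg
  refine ⟨(bb K n).equivFun.symm (fun i => (cycBasis t hV ht v hv).repr (g v) i), ?_⟩
  rw [Lam_eq_psi]
  refine Eq.trans ?_ h1.symm
  congr 1
  ext i
  simp

end endo

end Cfsg.Agent.Lib.Helper48TruncRep
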