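import Mathlib
import Cfsg.Agent.Lib.Helper48TruncRep

set_option autoImplicit false

namespace Cfsg.Agent.Lib.Helper48SpReg

open Polynomial Module Matrix Cfsg.Agent.Lib.Helper48Trunc Cfsg.Agent.Lib.Helper48TruncRep
  Cfsg.Agent.Lib.Helper48RegNil

variable {F : Type*} [Field F] {m : ℕ}

local notation "MM" => Matrix (Fin m ⊕ Fin m) (Fin m ⊕ Fin m) F
local notation "JJ" => Matrix.J (Fin m) F

/-- the adjoint with respect to the symplectic form -/
def st : MM →ₗ[F] MM where
  toFun X := (-JJ) * Xᵀ * JJ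
  map_add' X Y := by
    rw [Matrix.transpose_add, Matrix.mul_add, Matrix.add_mul]
  map_smul' c X := by
    rw [Matrix.transpose_smul, Matrix.mul_smul, Matrix.smul_mul]; rfl

theorem st_apply (X : MM) : st X = (-JJ) * Xᵀ * JJ := rfl

theorem st_mul (X Y : MM) : st (X * Y) = st Y * st X := by
  simp only [st_apply, Matrix.transpose_mul]
  calc (-JJ) * (Yᵀ * Xᵀ) * JJ = (-JJ) * Yᵀ * (-(JJ * JJ)) * Xᵀ * JJ := by
        rw [Matrix.J_squared, neg_neg, Matrix.mul_one]; simp only [Matrix.mul_assoc]
    _ = (-JJ) * Yᵀ * JJ * ((-JJ) * Xᵀ * JJ) := by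
        simp only [Matrix.mul_assoc, Matrix.neg_mul, Matrix.mul_neg]

theorem st_one : st (1 : MM) = 1 := by
  rw [st_apply, Matrix.transpose_one, Matrix.mul_one, Matrix.neg_mul, Matrix.J_squared, neg_neg]

theorem st_coe (u : Matrix.symplecticGroup (Fin m) F) :
    st (u : MM) = ((u⁻¹ : Matrix.symplecticGroup (Fin m) F) : MM) := rfl

theorem mem_iff_st (c : MM) : c ∈ Matrix.symplecticGroup (Fin m) F ↔ st c * c = 1 := by
  rw [SymplecticGroup.mem_iff', st_apply]
  constructor
  · intro h
    rw [Matrix.mul_assoc, Matrix.mul_assoc, ← Matrix.mul_assoc cᵀ, h, Matrix.neg_mul,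
      Matrix.J_squared, neg_neg]
  · intro h
    have h1 : JJ * ((-JJ) * cᵀ * JJ * c) = JJ * 1 := by rw [h]
    rw [Matrix.mul_one] at h1
    simp only [← Matrix.mul_assoc, Matrix.mul_neg, Matrix.J_squared, neg_neg, Matrix.one_mul] at h1
    exact h1


theorem structure_thm (h2 : (2 : F) ≠ 0) (hm : 1 ≤ m) (u : Matrix.symplecticGroup (Fin m) F)
    (hnil : ((u : MM) - 1) ^ (2 * m) = 0) (hreg : ((u : MM) - 1).rank = 2 * m - 1) :
    ∃ Λ : RR F (2 * m) →ₐ[F] MM, Function.Injective Λ ∧
      (∀ c : MM, c * (u : MM) = (u : MM) * c ↔ ∃ r, Λ r = c) ∧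
      ∀ r, st (Λ r) = Λ (sig F (2 * m) r) := by
  set U : MM := (u : MM) with hU
  set U' : MM := ((u⁻¹ : Matrix.symplecticGroup (Fin m) F) : MM) with hU'
  have hUU' : U * U' = 1 := congrArg Subtype.val (mul_inv_cancel u)
  have hU'U : U' * U = 1 := congrArg Subtype.val (inv_mul_cancel u)
  set N : MM := U - 1 with hN
  set t : MM := U - U' with ht
  set W : MM := U' * (U + 1) with hW
  have hcUU' : Commute U' U := by
    change U' * U = U * U'
    rw [hUU', hU'U]
  have htW : t = W * N := by
    rw [hW, hN, ht]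
    calc U - U' = U' * U * U - U' := by rw [hU'U, one_mul]
      _ = U' * (U + 1) * (U - 1) := by noncomm_ring
  have hcWN : Commute W N := by
    apply Commute.mul_left
    · exact hcUU'.sub_right (Commute.one_right _)
    · exact ((Commute.refl U).add_left (Commute.one_left _)).sub_right (Commute.one_right _)
  have htn : t ^ (2 * m) = 0 := by
    rw [htW, hcWN.mul_pow, hnil, mul_zero]
  have hWu : IsUnit W := by
    apply IsUnit.mul
    · exact ⟨⟨U', U, hU'U, hUU'⟩, rfl⟩
    · have h3 : U + 1 = (2 : F) • (1 : MM) + N := by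
        rw [hN, two_smul]; abel
      rw [h3]
      apply IsNilpotent.isUnit_add_left_of_commute
      · exact ⟨2 * m, hnil⟩
      · rw [← Algebra.algebraMap_eq_smul_one]; exact (IsUnit.mk0 _ h2).map _
      · exact (Commute.one_right _).smul_right _
  let e : MM ≃ₐ[F] End F (Fin m ⊕ Fin m → F) := Matrix.toLinAlgEquiv'
  have hV : finrank F (Fin m ⊕ Fin m → F) = 2 * m := by simp [two_mul]
  have hetn : (e t) ^ (2 * m) = 0 := by rw [← map_pow, htn, map_zero]
  have hker : finrank F (LinearMap.ker (e t)) ≤ 1 := by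
    have h3 : LinearMap.ker (e t) = LinearMap.ker (e N) := by
      rw [htW, map_mul]
      apply LinearMap.ker_comp_of_ker_eq_bot
      have h4 : IsUnit (e W) := hWu.map e
      rw [Module.End.isUnit_iff] at h4
      exact LinearMap.ker_eq_bot.2 h4.injective
    rw [h3]
    exact matrix_ker_le_one N (by simpa [two_mul] using hreg)
  let Λ : RR F (2 * m) →ₐ[F] MM := Lam t htn
  have he : ∀ r, e (Λ r) = Lam (F := F) (e t) hetn r := by
    intro r
    have h3 : (e : MM →ₐ[F] End F (Fin m ⊕ Fin m → F)).comp Λ = Lam (F := F) (e t) hetn := by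
      apply AdjoinRoot.algHom_ext
      simp [Λ]
    exact congrArg (fun f : RR F (2 * m) →ₐ[F] End F (Fin m ⊕ Fin m → F) => f r) h3
  have hinj : Function.Injective Λ := by
    intro r s hrs
    apply Lam_injective (e t) hV hetn hker (by omega)
    rw [← he, ← he, hrs]
  have hrange : ∀ c : MM, c * t = t * c ↔ ∃ r, Λ r = c := by
    intro c
    constructor
    · intro hc
      have h3 : Commute (e c) (e t) := by
        change e c * e t = e t * e c
        rw [← map_mul, ← map_mul, hc]
      obtain ⟨r, hr⟩ := exists_Lam_eq (e t) hV hetn hker (by omega) (e c) h3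
      exact ⟨r, e.injective (by rw [he, hr])⟩
    · rintro ⟨r, rfl⟩
      have h3 : Λ (xx F (2 * m)) = t := Lam_xx t htn
      calc Λ r * t = Λ r * Λ (xx F (2 * m)) := by rw [h3]
        _ = Λ (r * xx F (2 * m)) := (map_mul Λ _ _).symm
        _ = Λ (xx F (2 * m) * r) := congrArg Λ (mul_comm _ _)
        _ = Λ (xx F (2 * m)) * Λ r := map_mul Λ _ _
        _ = t * Λ r := by rw [h3]
  refine ⟨Λ, hinj, ?_, ?_⟩
  · intro c
    rw [← hrange]
    constructor
    · intro hc
      have h3 : c * U' = U' * c := by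
        calc c * U' = U' * (U * c) * U' := by rw [← mul_assoc, hU'U, one_mul]
          _ = U' * (c * U) * U' := by rw [hc]
          _ = U' * c := by rw [mul_assoc, mul_assoc, hUU', mul_one]
      rw [ht, mul_sub, sub_mul, hc, h3]
    · intro hc
      obtain ⟨r, hr⟩ := (hrange c).1 hc
      have h3 : U * t = t * U := by
        rw [ht, mul_sub, sub_mul, hUU', hU'U]
      obtain ⟨s, hs⟩ := (hrange U).1 h3
      calc c * U = Λ r * Λ s := by rw [hr, hs]
        _ = Λ (r * s) := (map_mul Λ _ _).symm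
        _ = Λ (s * r) := congrArg Λ (mul_comm _ _)
        _ = Λ s * Λ r := map_mul Λ _ _
        _ = U * c := by rw [hr, hs]
  · intro r
    have hst : st t = -t := by
      rw [ht, map_sub, hU, st_coe, hU', st_coe, inv_inv]
      abel
    exact star_Lam (F := F) st st_mul st_one t htn hst r

end Cfsg.Agent.Lib.Helper48SpReg
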