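import Mathlib
import Cfsg.Agent.Lib.Helper48SpReg
import Cfsg.Agent.Lib.Helper48Cayley

set_option autoImplicit false
set_option linter.unusedSectionVars false

namespace Cfsg.Agent.Lib.Helper48SpRegConj

open Polynomial Module Matrix Cfsg.Agent.Lib.Helper48Trunc Cfsg.Agent.Lib.Helper48TruncRep
  Cfsg.Agent.Lib.Helper48SpReg Cfsg.Agent.Lib.Helper48Cayley

variable {F : Type*} [Field F] {m : ℕ}

local notation "MM" => Matrix (Fin m ⊕ Fin m) (Fin m ⊕ Fin m) F
local notation "JJ" => Matrix.J (Fin m) F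
local notation "Sp" => Matrix.symplecticGroup (Fin m) F

theorem st_st (X : MM) : st (st X) = X := by
  simp only [st_apply, Matrix.transpose_mul, Matrix.transpose_neg, Matrix.transpose_transpose,
    Matrix.J_transpose, neg_neg]
  calc -JJ * (-JJ * (X * JJ)) * JJ = (JJ * JJ) * X * (JJ * JJ) := by
        simp only [Matrix.mul_assoc, Matrix.neg_mul, Matrix.mul_neg, neg_neg]
    _ = X := by rw [Matrix.J_squared]; simp

theorem coe_mul_inv (u : Sp) : (u : MM) * ((u⁻¹ : Sp) : MM) = 1 :=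
  congrArg Subtype.val (mul_inv_cancel u)

theorem coe_inv_mul (u : Sp) : ((u⁻¹ : Sp) : MM) * (u : MM) = 1 :=
  congrArg Subtype.val (inv_mul_cancel u)

theorem st_coe_inv (u : Sp) : st ((u⁻¹ : Sp) : MM) = (u : MM) := by
  rw [st_coe, inv_inv]

theorem comm_inv {M : Type*} [Monoid M] (h h' u : M) (h1 : h * h' = 1) (h2 : h' * h = 1)
    (hc : h * u = u * h) : h' * u = u * h' := by
  calc h' * u = h' * (u * h) * h' := by rw [mul_assoc, mul_assoc, h1, mul_one]
    _ = h' * (h * u) * h' := by rw [hc]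
    _ = u * h' := by rw [← mul_assoc h', h2, one_mul]

theorem conj_swap {M : Type*} [Monoid M] (y y' w u : M) (h1 : y * y' = 1) (h2 : y' * y = 1)
    (hc : w * y = y * u) : y' * w = u * y' := by
  calc y' * w = y' * (w * y) * y' := by rw [mul_assoc, mul_assoc, h1, mul_one]
    _ = y' * (y * u) * y' := by rw [hc]
    _ = u * y' := by rw [← mul_assoc y', h2, one_mul]

/-- similitude data -/
theorem st_inv_of_simil (y y' : MM) (a : F) (ha : a ≠ 0) (hyy' : y * y' = 1)
    (hy : st y * y = a • 1) : st y' * y' = a⁻¹ • 1 := by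
  have h1 : st y = a • y' := by
    calc st y = st y * y * y' := by rw [mul_assoc, hyy', mul_one]
      _ = a • y' := by rw [hy, smul_mul_assoc, one_mul]
  have h2 : y = a • st y' := by
    calc y = st (st y) := (st_st y).symm
      _ = a • st y' := by rw [h1, map_smul]
  have h3 : st y' = a⁻¹ • y := by
    rw [h2, smul_smul, inv_mul_cancel₀ ha, one_smul]
  rw [h3, smul_mul_assoc, hyy']

section
variable (u₀ : Matrix.symplecticGroup (Fin m) F)
  (Λ : RR F (2 * m) →ₐ[F] Matrix (Fin m ⊕ Fin m) (Fin m ⊕ Fin m) F) (hinj : Function.Injective Λ)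
  (hrange : ∀ c : Matrix (Fin m ⊕ Fin m) (Fin m ⊕ Fin m) F,
    c * (u₀ : Matrix (Fin m ⊕ Fin m) (Fin m ⊕ Fin m) F) =
      (u₀ : Matrix (Fin m ⊕ Fin m) (Fin m ⊕ Fin m) F) * c ↔ ∃ r, Λ r = c)
  (hst : ∀ r, st (Λ r) = Λ (sig F (2 * m) r)) (hn : 2 * m ≠ 0)

include hinj hrange hst hn

theorem key (u : Sp) (x x' : MM) (hxx' : x * x' = 1) (hx'x : x' * x = 1)
    (hconj : (u : MM) * x = x * (u₀ : MM)) :
    ∃ r, Λ r = st x * x ∧ sig F (2 * m) r = r ∧ eps F (2 * m) hn r ≠ 0 := by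
  have h1 : ((u⁻¹ : Sp) : MM) * x = x * ((u₀⁻¹ : Sp) : MM) := by
    calc ((u⁻¹ : Sp) : MM) * x = ((u⁻¹ : Sp) : MM) * (x * (u₀ : MM)) * ((u₀⁻¹ : Sp) : MM) := by
          rw [mul_assoc, mul_assoc, coe_mul_inv, mul_one]
      _ = ((u⁻¹ : Sp) : MM) * ((u : MM) * x) * ((u₀⁻¹ : Sp) : MM) := by rw [hconj]
      _ = x * ((u₀⁻¹ : Sp) : MM) := by rw [← mul_assoc, coe_inv_mul, one_mul]
  have h2 : st x * (u : MM) = (u₀ : MM) * st x := by
    have := congrArg st h1
    rwa [st_mul, st_mul, st_coe_inv, st_coe_inv] at this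
  have hcomm : (st x * x) * (u₀ : MM) = (u₀ : MM) * (st x * x) := by
    rw [mul_assoc, ← hconj, ← mul_assoc, h2, mul_assoc]
  obtain ⟨r, hr⟩ := (hrange _).1 hcomm
  have hh' : (st x * x) * (x' * st x') = 1 := by
    calc (st x * x) * (x' * st x') = st x * (x * x') * st x' := by simp only [mul_assoc]
      _ = 1 := by rw [hxx', mul_one, ← st_mul, hx'x, st_one]
  have hh'2 : (x' * st x') * (st x * x) = 1 := by
    calc (x' * st x') * (st x * x) = x' * (st x' * st x) * x := by simp only [mul_assoc]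
      _ = 1 := by rw [← st_mul, hxx', st_one, mul_one, hx'x]
  have hcomm' : (x' * st x') * (u₀ : MM) = (u₀ : MM) * (x' * st x') :=
    comm_inv _ _ _ hh' hh'2 hcomm
  obtain ⟨r', hr'⟩ := (hrange _).1 hcomm'
  refine ⟨r, hr, ?_, ?_⟩
  · apply hinj
    rw [← hst, hr, st_mul, st_st]
  · have h3 : r * r' = 1 := by
      apply hinj
      rw [map_mul, hr, hr', hh', map_one]
    have h4 := congrArg (eps F (2 * m) hn) h3
    rw [map_mul, map_one] at h4
    exact left_ne_zero_of_mul_eq_one h4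

theorem conj_of_eps [Finite F] (h2 : (2 : F) ≠ 0) (u w : Sp) (x y y' : MM) (a e : F) (ha : a ≠ 0)
    (he : e ≠ 0)
    (hconj : (u : MM) * x = x * (u₀ : MM))
    (hyy' : y * y' = 1) (hy'y : y' * y = 1) (hy : st y * y = a • 1)
    (hconj' : (w : MM) * y = y * (u₀ : MM)) (r : RR F (2 * m)) (hr : Λ r = st x * x)
    (hσ : sig F (2 * m) r = r) (hε : eps F (2 * m) hn r = a * (e * e)) : IsConj w u := by
  have _ : Finite (RR F (2 * m)) := finite_RR F (2 * m)
  obtain ⟨z, hz⟩ := exists_norm (sig F (2 * m)).toRingHom (eps F (2 * m) hn).toRingHom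
    (isUnit_of_eps F (2 * m) hn) h2 (fun b => (sig F (2 * m)).commutes b)
    (fun b => (eps F (2 * m) hn).commutes b) (a⁻¹ • r)
    (by change sig F (2 * m) (a⁻¹ • r) = _; rw [map_smul, hσ]) e he
    (by change eps F (2 * m) hn (a⁻¹ • r) = _; rw [map_smul, hε, smul_eq_mul]; field_simp)
  change sig F (2 * m) z * z = a⁻¹ • r at hz
  have hzu : IsUnit z := by
    apply isUnit_of_eps F (2 * m) hn
    intro h0
    have h3 := congrArg (eps F (2 * m) hn) hz
    rw [map_mul, h0, mul_zero, map_smul, hε, smul_eq_mul] at h3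
    have : a⁻¹ * (a * (e * e)) ≠ 0 :=
      mul_ne_zero (inv_ne_zero ha) (mul_ne_zero ha (mul_ne_zero he he))
    exact this h3.symm
  obtain ⟨z', hzz'⟩ := hzu.exists_right_inv
  have hr2 : r = a • (sig F (2 * m) z * z) := by
    rw [hz, smul_smul, mul_inv_cancel₀ ha, one_smul]
  have h3 : sig F (2 * m) z' * r * z' = a • 1 := by
    have h4 : sig F (2 * m) z * sig F (2 * m) z' = 1 := by rw [← map_mul, hzz', map_one]
    rw [hr2, mul_smul_comm, smul_mul_assoc]
    congr 1
    linear_combination (z * z') * h4 + hzz'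
  have hy4 := st_inv_of_simil y y' a ha hyy' hy
  set s : MM := x * Λ z' * y' with hs
  have hmem : s ∈ Matrix.symplecticGroup (Fin m) F := by
    rw [mem_iff_st, hs, st_mul, st_mul, hst]
    calc st y' * (Λ (sig F (2 * m) z') * st x) * (x * Λ z' * y')
        = st y' * (Λ (sig F (2 * m) z') * (st x * x) * Λ z') * y' := by simp only [mul_assoc]
      _ = st y' * Λ (sig F (2 * m) z' * r * z') * y' := by rw [← hr, ← map_mul, ← map_mul]
      _ = 1 := by
        rw [h3, map_smul, map_one, mul_smul_comm, mul_one, smul_mul_assoc, hy4, smul_smul,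
          mul_inv_cancel₀ ha, one_smul]
  have h5 : y' * (w : MM) = (u₀ : MM) * y' := conj_swap _ _ _ _ hyy' hy'y hconj'
  have h6 : Λ z' * (u₀ : MM) = (u₀ : MM) * Λ z' := (hrange _).2 ⟨z', rfl⟩
  have h7 : s * (w : MM) = (u : MM) * s := by
    calc s * (w : MM) = x * Λ z' * (y' * (w : MM)) := by rw [hs]; simp only [mul_assoc]
      _ = x * (Λ z' * (u₀ : MM)) * y' := by rw [h5]; simp only [mul_assoc]
      _ = (x * (u₀ : MM)) * Λ z' * y' := by rw [h6]; simp only [mul_assoc]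
      _ = (u : MM) * s := by rw [← hconj, hs]; simp only [mul_assoc]
  rw [isConj_iff]
  refine ⟨⟨s, hmem⟩, ?_⟩
  rw [mul_inv_eq_iff_eq_mul]
  exact Subtype.ext h7

theorem not_conj (w : Sp) (y y' : MM) (a : F) (ha : a ≠ 0) (hsq : ¬ IsSquare a)
    (hyy' : y * y' = 1) (hy'y : y' * y = 1) (hy : st y * y = a • 1)
    (hconj' : (w : MM) * y = y * (u₀ : MM)) : ¬ IsConj u₀ w := by
  intro hc
  rw [isConj_iff] at hc
  obtain ⟨c, hc⟩ := hc
  rw [mul_inv_eq_iff_eq_mul] at hc
  have hc' : (c : MM) * (u₀ : MM) = (w : MM) * (c : MM) := congrArg Subtype.val hc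
  have h5 : y' * (w : MM) = (u₀ : MM) * y' := conj_swap _ _ _ _ hyy' hy'y hconj'
  have h6 : (y' * (c : MM)) * (u₀ : MM) = (u₀ : MM) * (y' * (c : MM)) := by
    rw [mul_assoc, hc', ← mul_assoc, h5, mul_assoc]
  obtain ⟨s, hs⟩ := (hrange _).1 h6
  have hy4 := st_inv_of_simil y y' a ha hyy' hy
  have h7 : sig F (2 * m) s * s = a⁻¹ • 1 := by
    apply hinj
    rw [map_mul, ← hst, hs, st_mul, map_smul, map_one]
    calc st (c : MM) * st y' * (y' * (c : MM)) = st (c : MM) * (st y' * y') * (c : MM) := by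
          simp only [mul_assoc]
      _ = a⁻¹ • 1 := by
          rw [hy4, mul_smul_comm, mul_one, smul_mul_assoc, (mem_iff_st _).1 c.2]
  have h8 := congrArg (eps F (2 * m) hn) h7
  rw [map_mul, eps_sig, map_smul, map_one, smul_eq_mul, mul_one] at h8
  apply hsq
  refine ⟨(eps F (2 * m) hn s)⁻¹, ?_⟩
  rw [← mul_inv, h8, inv_inv]

end

end Cfsg.Agent.Lib.Helper48SpRegConj
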