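import Mathlib
import Cfsg.Agent.Lib.Helper48Good
import Cfsg.Agent.Lib.Helper48AltCongr
import Cfsg.Agent.S2589

set_option autoImplicit false

namespace Cfsg.Agent.Lib.Helper48AltForm

open Cfsg.Agent.Lib.Helper48Norm Cfsg.Agent.Lib.Helper48Good Cfsg.Agent.Lib.Helper48AltCongr

section h90
variable {R : Type*} [Ring R] [Finite R] (st : R →+ R)
  (hmul : ∀ a b, st (a * b) = st b * st a) (hone : st 1 = 1)

include hmul hone in
/-- Hilbert 90 in trace form on a commutative `st`-stable subring on which `st` is an involution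
of the second kind -/
theorem h90_part (S : Subring R) (hcomm : ∀ x ∈ S, ∀ y ∈ S, x * y = y * x)
    (hstS : ∀ x ∈ S, st x ∈ S) (hst2 : ∀ x ∈ S, st (st x) = x) (a c v : R) (ha : a ∈ S)
    (hc : c ∈ S) (hv : v ∈ S) (hav : (a - st a) * v = 1) (hcc : st c * c = 1) :
    ∃ w ∈ S, ∃ α' ∈ S, (w - st w * c) * α' = 1 := by
  let _ : CommRing S :=
    { (inferInstance : Ring S) with mul_comm := fun x y => Subtype.ext (hcomm x x.2 y y.2) }
  let σ : S →+* S :=
    { toFun := fun x => ⟨st x, hstS x x.2⟩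
      map_one' := Subtype.ext hone
      map_mul' := fun x y => Subtype.ext (by
        change st (x.1 * y.1) = st x.1 * st y.1
        rw [hmul]
        exact hcomm _ (hstS _ y.2) _ (hstS _ x.2))
      map_zero' := Subtype.ext (map_zero st)
      map_add' := fun x y => Subtype.ext (map_add st _ _) }
  have hσ2 : ∀ x, σ (σ x) = x := fun x => Subtype.ext (hst2 x x.2)
  have hω : IsUnit ((⟨a, ha⟩ : S) - σ ⟨a, ha⟩) :=
    IsUnit.of_mul_eq_one (⟨v, hv⟩ : S) (Subtype.ext hav)
  obtain ⟨θ, hθ⟩ := exists_theta σ _ hω hσ2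
  obtain ⟨a₀, ha₀u, ha₀⟩ := hilbert90 σ hσ2 _ hω (-(⟨c, hc⟩ : S)) (by
    rw [map_neg, neg_mul_neg]
    exact Subtype.ext hcc)
  obtain ⟨a₁, ha₁⟩ := ha₀u.exists_right_inv
  refine ⟨(θ * a₀ : S), (θ * a₀ : S).2, a₁, a₁.2, ?_⟩
  have h1 : θ * a₀ - σ (θ * a₀) * ⟨c, hc⟩ = a₀ := by
    rw [map_mul]
    calc θ * a₀ - σ θ * σ a₀ * ⟨c, hc⟩ = θ * a₀ + σ θ * (-(⟨c, hc⟩ : S) * σ a₀) := by ring
      _ = (θ + σ θ) * a₀ := by rw [ha₀]; ring
      _ = a₀ := by rw [hθ, one_mul]
  have h2 := congrArg Subtype.val (show (θ * a₀ - σ (θ * a₀) * ⟨c, hc⟩) * a₁ = 1 by rw [h1, ha₁])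
  exact h2

end h90


section skew
variable {R : Type*} [Ring R] [Finite R] (tr : R →+ R)
  (hmul : ∀ a b, tr (a * b) = tr b * tr a) (hone : tr 1 = 1) (htr2 : ∀ a, tr (tr a) = a)

include hmul hone htr2 in
/-- an invariant nondegenerate bilinear form of an isometry `a` with `a - a⁻¹` invertible can be
replaced by a skew one of the shape `Z - tr Z` -/
theorem exists_skew_form (a a' X X' v : R) (haa' : a * a' = 1) (ha'a : a' * a = 1)
    (hXX' : X * X' = 1) (hX'X : X' * X = 1) (hinv : tr a * X * a = X) (hv : (a - a') * v = 1)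
    (hva : ∀ y, Commute y a → Commute y v) :
    ∃ Z Y' : R, (Z - tr Z) * Y' = 1 ∧ tr a * Z * a = Z := by
  let τ : R →+ R := (AddMonoidHom.mulLeft X').comp ((AddMonoidHom.mulRight X).comp tr)
  have hτ : ∀ x, τ x = X' * (tr x * X) := fun x => rfl
  have hτmul : ∀ x y, τ (x * y) = τ y * τ x := by
    intro x y
    rw [hτ, hτ, hτ, hmul]
    calc X' * (tr y * tr x * X) = X' * (tr y * 1 * (tr x * X)) := by simp only [mul_assoc, one_mul]
      _ = X' * (tr y * X) * (X' * (tr x * X)) := by rw [← hXX']; simp only [mul_assoc]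
  have hτone : τ 1 = 1 := by rw [hτ, hone, one_mul, hX'X]
  set c : R := X' * tr X with hc
  set c' : R := tr X' * X with hc'
  have hcc' : c * c' = 1 := by
    calc X' * tr X * (tr X' * X) = X' * (tr X * tr X') * X := by simp only [mul_assoc]
      _ = 1 := by rw [← hmul, hX'X, hone, mul_one, hX'X]
  have hc'c : c' * c = 1 := by
    calc tr X' * X * (X' * tr X) = tr X' * (X * X') * tr X := by simp only [mul_assoc]
      _ = 1 := by rw [hXX', mul_one, ← hmul, hXX', hone]
  have hτc : τ c = c' := by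
    rw [hτ, hc, hmul, htr2, hc']
    calc X' * (X * tr X' * X) = (X' * X) * (tr X' * X) := by simp only [mul_assoc]
      _ = tr X' * X := by rw [hX'X, one_mul]
  have h1 : tr a * X = X * a' := by
    calc tr a * X = tr a * X * (a * a') := by rw [haa', mul_one]
      _ = (tr a * X * a) * a' := by simp only [mul_assoc]
      _ = X * a' := by rw [hinv]
  have hτa : τ a = a' := by rw [hτ, h1, ← mul_assoc, hX'X, one_mul]
  have htaa' : tr a' * tr a = 1 := by rw [← hmul, haa', hone]
  have h2 : X * a = tr a' * X := by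
    calc X * a = (tr a' * tr a) * (X * a) := by rw [htaa', one_mul]
      _ = tr a' * (tr a * X * a) := by simp only [mul_assoc]
      _ = tr a' * X := by rw [hinv]
  have h3 : tr X * a = tr a' * tr X := by
    have h4 := congrArg tr h1
    rw [hmul, hmul, htr2] at h4
    exact h4
  have h5 : a * X' = X' * tr a' := by
    calc a * X' = (X' * X) * a * X' := by rw [hX'X, one_mul]
      _ = X' * (X * a) * X' := by simp only [mul_assoc]
      _ = X' * tr a' * (X * X') := by rw [h2]; simp only [mul_assoc]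
      _ = X' * tr a' := by rw [hXX', mul_one]
  have hca : Commute c a := by
    change c * a = a * c
    rw [hc, mul_assoc, h3, ← mul_assoc, ← h5, mul_assoc]
  have hττ : ∀ x, τ (τ x) = c * x * c' := by
    intro x
    rw [hτ, hτ, hmul, hmul, htr2, hc, hc']
    simp only [mul_assoc]
  let S : Subring R := Subring.centralizer {y | Commute y a ∧ Commute y c}
  have hS : ∀ x, x ∈ S ↔ ∀ y, Commute y a → Commute y c → Commute y x := by
    intro x
    rw [Subring.mem_centralizer_iff]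
    exact ⟨fun h y h1 h2 => h y ⟨h1, h2⟩, fun h y hy => h y hy.1 hy.2⟩
  have haS : a ∈ S := (hS a).2 fun y h1 _ => h1
  have hcS : c ∈ S := (hS c).2 fun y _ h2 => h2
  have hvS : v ∈ S := (hS v).2 fun y h1 _ => hva y h1
  have hSa : ∀ x ∈ S, Commute x a := fun x hx => ((hS x).1 hx a (Commute.refl a) hca.symm).symm
  have hSc : ∀ x ∈ S, Commute x c := fun x hx => ((hS x).1 hx c hca (Commute.refl c)).symm
  have hcommS : ∀ x ∈ S, ∀ y ∈ S, x * y = y * x := by
    intro x hx y hy
    exact ((hS x).1 hx y (hSa y hy) (hSc y hy)).eq.symm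
  have hfix : ∀ y, Commute y c → τ (τ y) = y := by
    intro y hy
    rw [hττ, ← hy.eq, mul_assoc, hcc', mul_one]
  have hstS : ∀ x ∈ S, τ x ∈ S := by
    intro x hx
    rw [hS]
    intro y h1 h2
    have h6 : Commute (τ y) a := by
      have h7 : Commute (τ y) a' := by
        have h8 := congrArg τ h1.eq
        rw [hτmul y a, hτmul a y, hτa] at h8
        exact h8.symm
      exact commute_inv_right (τ y) a' a ha'a haa' h7
    have h9 : Commute (τ y) c := by
      have h7 : Commute (τ y) c' := by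
        have h8 := congrArg τ h2.eq
        rw [hτmul y c, hτmul c y, hτc] at h8
        exact h8.symm
      exact commute_inv_right (τ y) c' c hc'c hcc' h7
    have h10 := congrArg τ ((hS x).1 hx (τ y) h6 h9).eq
    rw [hτmul (τ y) x, hτmul x (τ y), hfix y h2] at h10
    exact h10.symm
  obtain ⟨w, hwS, α', _, hw⟩ := h90_part τ hτmul hτone S hcommS hstS
    (fun x hx => hfix x (hSc x hx)) a c v haS hcS hvS (by rw [hτa]; exact hv)
    (by rw [hτc, hc'c])
  have h11 : X * w - tr (X * w) = X * (w - τ w * c) := by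
    rw [mul_sub, hmul, hτ, hc]
    congr 1
    calc tr w * tr X = (X * X') * (tr w * (X * X')) * tr X := by rw [hXX', one_mul, mul_one]
      _ = X * (X' * (tr w * X) * (X' * tr X)) := by simp only [mul_assoc]
  refine ⟨X * w, α' * X', ?_, ?_⟩
  · rw [h11]
    calc X * (w - τ w * c) * (α' * X') = X * ((w - τ w * c) * α') * X' := by
          simp only [mul_assoc]
      _ = 1 := by rw [hw, mul_one, hXX']
  · calc tr a * (X * w) * a = tr a * X * (w * a) := by simp only [mul_assoc]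
      _ = (tr a * X * a) * w := by rw [(hSa w hwS).eq]; simp only [mul_assoc]
      _ = X * w := by rw [hinv]

end skew


section mat
open Matrix
variable {F : Type*} [Field F] {ι : Type*} [Fintype ι] [DecidableEq ι]

theorem alt_sub_transpose (Z : Matrix ι ι F) (x : ι → F) : x ⬝ᵥ (Z - Zᵀ).mulVec x = 0 := by
  rw [Matrix.sub_mulVec, dotProduct_sub, sub_eq_zero, Matrix.mulVec_transpose,
    Matrix.dotProduct_mulVec, dotProduct_comm]

/-- a semisimple matrix without eigenvalues `±1` which is conjugate to its inverse transpose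
preserves a nondegenerate alternating form -/
theorem matrix_exists_alt [Finite F] (M M' X X' v : Matrix ι ι F) (hMM' : M * M' = 1)
    (hXX' : X * X' = 1) (hinv : Mᵀ * X * M = X) (hv : (M - M') * v = 1)
    (hva : ∀ y, Commute y M → Commute y v) :
    ∃ Y Y' : Matrix ι ι F, Y * Y' = 1 ∧ (∀ x : ι → F, x ⬝ᵥ Y.mulVec x = 0) ∧ Mᵀ * Y * M = Y := by
  have _ : Finite (Matrix ι ι F) := inferInstanceAs (Finite (ι → ι → F))
  obtain ⟨Z, Y', h1, h2⟩ := exists_skew_form (Matrix.transposeAddEquiv ι ι F).toAddMonoidHom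
    (fun a b => Matrix.transpose_mul a b) Matrix.transpose_one Matrix.transpose_transpose
    M M' X X' v hMM' (mul_eq_one_comm.1 hMM') hXX' (mul_eq_one_comm.1 hXX') hinv hv hva
  change (Z - Zᵀ) * Y' = 1 at h1
  change Mᵀ * Z * M = Z at h2
  refine ⟨Z - Zᵀ, Y', h1, alt_sub_transpose Z, ?_⟩
  have h3 : Mᵀ * Zᵀ * M = Zᵀ := by
    have := congrArg Matrix.transpose h2
    rwa [Matrix.transpose_mul, Matrix.transpose_mul, Matrix.transpose_transpose,
      ← Matrix.mul_assoc] at this
  rw [Matrix.mul_sub, Matrix.sub_mul, h2, h3]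

theorem even_card_of_alt (Y Y' : Matrix ι ι F) (hYY' : Y * Y' = 1)
    (halt : ∀ x : ι → F, x ⬝ᵥ Y.mulVec x = 0) : Even (Fintype.card ι) := by
  have hA : (Matrix.toBilin' Y).IsAlt := fun x => by rw [Matrix.toBilin'_apply']; exact halt x
  obtain ⟨m, k, b, h1, h2, h3, h4⟩ := Cfsg.Agent.S0752.result (Matrix.toBilin' Y) hA
  have hk := finrank_ker (Matrix.toBilin' Y) b (gram_eq _ hA b h1 h2 h3 h4)
  have hker : LinearMap.ker (Matrix.toBilin' Y) = ⊥ := by
    rw [LinearMap.ker_eq_bot']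
    intro x hx
    have h5 : Matrix.vecMul x Y = 0 := by
      rw [← dotProduct_eq_zero_iff]
      intro w
      have := congrArg (fun f => f w) hx
      simpa [Matrix.toBilin'_apply', Matrix.dotProduct_mulVec] using this
    have h6 := congrArg (fun w => Matrix.vecMul w Y') h5
    simpa [Matrix.vecMul_vecMul, hYY'] using h6
  rw [hker, finrank_bot] at hk
  have h7 := Module.finrank_eq_card_basis b
  rw [Module.finrank_fintype_fun_eq_card] at h7
  simp only [Fintype.card_sum, Fintype.card_fin] at h7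
  exact ⟨m, by omega⟩

/-- a matrix preserving a nondegenerate alternating form is conjugate into `Sp` -/
theorem conj_into_Sp {m : ℕ} (M Y Y' : Matrix (Fin m ⊕ Fin m) (Fin m ⊕ Fin m) F)
    (hYY' : Y * Y' = 1) (halt : ∀ x : Fin m ⊕ Fin m → F, x ⬝ᵥ Y.mulVec x = 0)
    (hinv : Mᵀ * Y * M = Y) :
    ∃ Q Q' : Matrix (Fin m ⊕ Fin m) (Fin m ⊕ Fin m) F, Q * Q' = 1 ∧ Q' * Q = 1 ∧
      Q * M * Q' ∈ Matrix.symplecticGroup (Fin m) F := by
  have hJJ : Matrix.J (Fin m) F * -Matrix.J (Fin m) F = 1 := by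
    rw [Matrix.mul_neg, Matrix.J_squared, neg_neg]
  have hJH : Matrix.J (Fin m) F * (-Matrix.J (Fin m) F * Y) = Y := by
    rw [← Matrix.mul_assoc, hJJ, Matrix.one_mul]
  obtain ⟨Q, hQ⟩ := matrix_congr (Matrix.J (Fin m) F) (-Matrix.J (Fin m) F * Y)
    (Y' * Matrix.J (Fin m) F)
    (by
      calc -Matrix.J (Fin m) F * Y * (Y' * Matrix.J (Fin m) F)
          = -Matrix.J (Fin m) F * (Y * Y') * Matrix.J (Fin m) F := by simp only [Matrix.mul_assoc]
        _ = 1 := by rw [hYY', Matrix.mul_one, Cfsg.Agent.S2589.neg_J_mul_J])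
    Cfsg.Agent.S2589.J_alt (fun x => by rw [hJH]; exact halt x)
  rw [hJH] at hQ
  have hY'Y : Y' * Y = 1 := mul_eq_one_comm.1 hYY'
  have hQ'Q : Y' * Qᵀ * Matrix.J (Fin m) F * Q = 1 := by
    calc Y' * Qᵀ * Matrix.J (Fin m) F * Q = Y' * (Qᵀ * Matrix.J (Fin m) F * Q) := by
          simp only [Matrix.mul_assoc]
      _ = 1 := by rw [hQ, hY'Y]
  have hQQ' : Q * (Y' * Qᵀ * Matrix.J (Fin m) F) = 1 := mul_eq_one_comm.1 hQ'Q
  set Q' := Y' * Qᵀ * Matrix.J (Fin m) F with hQ'
  refine ⟨Q, Q', hQQ', hQ'Q, ?_⟩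
  rw [SymplecticGroup.mem_iff']
  have h1 : Q'ᵀ * Qᵀ = 1 := by rw [← Matrix.transpose_mul, hQQ', Matrix.transpose_one]
  calc (Q * M * Q')ᵀ * Matrix.J (Fin m) F * (Q * M * Q')
      = Q'ᵀ * (Mᵀ * (Qᵀ * Matrix.J (Fin m) F * Q) * M) * Q' := by
        simp only [Matrix.transpose_mul, Matrix.mul_assoc]
    _ = Q'ᵀ * (Qᵀ * Matrix.J (Fin m) F * Q) * Q' := by rw [hQ, hinv]
    _ = (Q'ᵀ * Qᵀ) * Matrix.J (Fin m) F * (Q * Q') := by simp only [Matrix.mul_assoc]
    _ = Matrix.J (Fin m) F := by rw [h1, hQQ', Matrix.one_mul, Matrix.mul_one]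

end mat

end Cfsg.Agent.Lib.Helper48AltForm
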