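import Mathlib
import Cfsg.Prelude

set_option autoImplicit false
open Cfsg
open scoped MatrixGroups Matrix

/-! Similitude groups of bilinear forms given by Gram matrices, transport of `projQuot`. (helper50) -/

namespace Cfsg.Agent.Lib.Helper50Form

variable {ι κ : Type} [Fintype ι] [DecidableEq ι] [Fintype κ] [DecidableEq κ] {F : Type*} [Field F]

theorem gl_mul_inv' (g : GL ι F) : (g : Matrix ι ι F) * ((g⁻¹ : GL ι F) : Matrix ι ι F) = 1 := by
  rw [← Units.val_mul, mul_inv_cancel, Units.val_one]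

theorem gl_inv_mul' (g : GL ι F) : ((g⁻¹ : GL ι F) : Matrix ι ι F) * (g : Matrix ι ι F) = 1 := by
  rw [← Units.val_mul, inv_mul_cancel, Units.val_one]

theorem glT_mul_inv (g : GL ι F) :
    (g : Matrix ι ι F)ᵀ * ((g⁻¹ : GL ι F) : Matrix ι ι F)ᵀ = 1 := by
  rw [← Matrix.transpose_mul, gl_inv_mul', Matrix.transpose_one]

theorem glT_inv_mul (g : GL ι F) :
    ((g⁻¹ : GL ι F) : Matrix ι ι F)ᵀ * (g : Matrix ι ι F)ᵀ = 1 := by
  rw [← Matrix.transpose_mul, gl_mul_inv', Matrix.transpose_one]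

/-- similitudes of the bilinear form `(u,v) ↦ uᵀ A v` -/
def simT (A : Matrix ι ι F) : Subgroup (GL ι F) where
  carrier := {g | ∃ c : Fˣ, (g : Matrix ι ι F)ᵀ * A * (g : Matrix ι ι F) = (c : F) • A}
  mul_mem' := by
    rintro a b ⟨c, hc⟩ ⟨d, hd⟩
    refine ⟨c * d, ?_⟩
    rw [Units.val_mul, Matrix.transpose_mul]
    calc (b : Matrix ι ι F)ᵀ * (a : Matrix ι ι F)ᵀ * A * ((a : Matrix ι ι F) * (b : Matrix ι ι F))
        = (b : Matrix ι ι F)ᵀ * ((a : Matrix ι ι F)ᵀ * A * (a : Matrix ι ι F)) * (b : Matrix ι ι F) := by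
          simp only [mul_assoc]
      _ = _ := by rw [hc, mul_smul_comm, smul_mul_assoc, hd, smul_smul, Units.val_mul]
  one_mem' := ⟨1, by simp⟩
  inv_mem' := by
    rintro a ⟨c, hc⟩
    refine ⟨c⁻¹, ?_⟩
    have h1 : ((a⁻¹ : GL ι F) : Matrix ι ι F)ᵀ * ((a : Matrix ι ι F)ᵀ * A * (a : Matrix ι ι F))
        * ((a⁻¹ : GL ι F) : Matrix ι ι F) = A := by
      calc _ = (((a⁻¹ : GL ι F) : Matrix ι ι F)ᵀ * (a : Matrix ι ι F)ᵀ) * A
            * ((a : Matrix ι ι F) * ((a⁻¹ : GL ι F) : Matrix ι ι F)) := by simp only [mul_assoc]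
        _ = A := by rw [glT_inv_mul, gl_mul_inv', one_mul, mul_one]
    rw [hc, mul_smul_comm, smul_mul_assoc] at h1
    show ((a⁻¹ : GL ι F) : Matrix ι ι F)ᵀ * A * ((a⁻¹ : GL ι F) : Matrix ι ι F) = ((c⁻¹ : Fˣ) : F) • A
    conv_rhs => rw [← h1]
    rw [smul_smul, Units.val_inv_eq_inv_val, inv_mul_cancel₀ c.ne_zero, one_smul]

theorem mem_simT (A : Matrix ι ι F) (g : GL ι F) :
    g ∈ simT A ↔ ∃ c : Fˣ, (g : Matrix ι ι F)ᵀ * A * (g : Matrix ι ι F) = (c : F) • A := Iff.rfl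

/-- isometries of the bilinear form `(u,v) ↦ uᵀ A v` -/
def isoT (A : Matrix ι ι F) : Subgroup (GL ι F) where
  carrier := {g | (g : Matrix ι ι F)ᵀ * A * (g : Matrix ι ι F) = A}
  mul_mem' := by
    intro a b hc hd
    show ((a * b : GL ι F) : Matrix ι ι F)ᵀ * A * ((a * b : GL ι F) : Matrix ι ι F) = A
    rw [Units.val_mul, Matrix.transpose_mul]
    calc (b : Matrix ι ι F)ᵀ * (a : Matrix ι ι F)ᵀ * A * ((a : Matrix ι ι F) * (b : Matrix ι ι F))
        = (b : Matrix ι ι F)ᵀ * ((a : Matrix ι ι F)ᵀ * A * (a : Matrix ι ι F)) * (b : Matrix ι ι F) := by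
          simp only [mul_assoc]
      _ = _ := by rw [show (a : Matrix ι ι F)ᵀ * A * (a : Matrix ι ι F) = A from hc]; exact hd
  one_mem' := by simp
  inv_mem' := by
    intro a hc
    have hc' : (a : Matrix ι ι F)ᵀ * A * (a : Matrix ι ι F) = A := hc
    show ((a⁻¹ : GL ι F) : Matrix ι ι F)ᵀ * A * ((a⁻¹ : GL ι F) : Matrix ι ι F) = A
    calc _ = ((a⁻¹ : GL ι F) : Matrix ι ι F)ᵀ * ((a : Matrix ι ι F)ᵀ * A * (a : Matrix ι ι F))
        * ((a⁻¹ : GL ι F) : Matrix ι ι F) := by rw [hc']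
      _ = (((a⁻¹ : GL ι F) : Matrix ι ι F)ᵀ * (a : Matrix ι ι F)ᵀ) * A
            * ((a : Matrix ι ι F) * ((a⁻¹ : GL ι F) : Matrix ι ι F)) := by simp only [mul_assoc]
      _ = A := by rw [glT_inv_mul, gl_mul_inv', one_mul, mul_one]

theorem mem_isoT (A : Matrix ι ι F) (g : GL ι F) :
    g ∈ isoT A ↔ (g : Matrix ι ι F)ᵀ * A * (g : Matrix ι ι F) = A := Iff.rfl

theorem isoT_le_simT (A : Matrix ι ι F) : isoT A ≤ simT A := by
  intro g hg
  exact ⟨1, by rw [Units.val_one, one_smul]; exact hg⟩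

theorem scalars_le_simT (A : Matrix ι ι F) : Geo.scalars ι F ≤ simT A := by
  intro g hg
  obtain ⟨c, hc⟩ := (Geo.mem_scalars_iff g).1 hg
  refine ⟨c * c, ?_⟩
  rw [hc, Matrix.transpose_smul, Matrix.transpose_one, smul_mul_assoc, one_mul, mul_smul_comm, mul_one,
    smul_smul, Units.val_mul]

/-! ### transport of `projQuot` -/

def restrictEquiv {G G' : Type*} [Group G] [Group G'] (Φ : G ≃* G') (H : Subgroup G) (H' : Subgroup G')
    (hH : ∀ g, g ∈ H ↔ Φ g ∈ H') : H ≃* H' where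
  toFun h := ⟨Φ h, (hH h).1 h.2⟩
  invFun h := ⟨Φ.symm h, (hH _).2 (by rw [Φ.apply_symm_apply]; exact h.2)⟩
  left_inv h := Subtype.ext (by simp)
  right_inv h := Subtype.ext (by simp)
  map_mul' a b := Subtype.ext (by simp)

theorem projQuot_congr' {K : Type*} [Field K] (H : Subgroup (GL ι F)) (H' : Subgroup (GL κ K))
    (e : H ≃* H')
    (hs : ∀ h : H, (h : GL ι F) ∈ Geo.scalars ι F ↔ ((e h : H') : GL κ K) ∈ Geo.scalars κ K) :
    Nonempty (projQuot H ≃* projQuot H') := by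
  refine ⟨QuotientGroup.congr _ _ e ?_⟩
  ext x
  simp only [Subgroup.mem_map, Subgroup.mem_subgroupOf]
  constructor
  · rintro ⟨h, hh, rfl⟩
    exact (hs h).1 hh
  · intro hx
    refine ⟨e.symm x, (hs _).2 ?_, ?_⟩
    · rw [MulEquiv.apply_symm_apply]; exact hx
    · exact e.apply_symm_apply x

theorem projQuot_congr {K : Type*} [Field K] (Φ : GL ι F ≃* GL κ K)
    (hs : ∀ g, g ∈ Geo.scalars ι F ↔ Φ g ∈ Geo.scalars κ K)
    (H : Subgroup (GL ι F)) (H' : Subgroup (GL κ K)) (hH : ∀ g, g ∈ H ↔ Φ g ∈ H') :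
    Nonempty (projQuot H ≃* projQuot H') :=
  projQuot_congr' H H' (restrictEquiv Φ H H' hH) (fun h => hs h)

theorem projQuot_of_eq (H H' : Subgroup (GL ι F)) (h : H = H') :
    Nonempty (projQuot H ≃* projQuot H') := by
  subst h
  exact ⟨MulEquiv.refl _⟩

/-! ### congruence -/

theorem conj_mem_simT (A A' : Matrix ι ι F) (P : GL ι F) (c : F) (hc : c ≠ 0)
    (hA : A' = c • ((P : Matrix ι ι F)ᵀ * A * (P : Matrix ι ι F))) (h : GL ι F) (hh : h ∈ simT A) :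
    P⁻¹ * h * P ∈ simT A' := by
  obtain ⟨k, hk⟩ := hh
  refine ⟨k, ?_⟩
  rw [Units.val_mul, Units.val_mul, Matrix.transpose_mul, Matrix.transpose_mul, hA]
  simp only [mul_smul_comm, smul_mul_assoc]
  rw [smul_comm]
  congr 1
  calc (P : Matrix ι ι F)ᵀ * ((h : Matrix ι ι F)ᵀ * ((P⁻¹ : GL ι F) : Matrix ι ι F)ᵀ)
        * ((P : Matrix ι ι F)ᵀ * A * (P : Matrix ι ι F))
        * (((P⁻¹ : GL ι F) : Matrix ι ι F) * (h : Matrix ι ι F) * (P : Matrix ι ι F))
      = (P : Matrix ι ι F)ᵀ * ((h : Matrix ι ι F)ᵀ * ((((P⁻¹ : GL ι F) : Matrix ι ι F)ᵀ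
        * (P : Matrix ι ι F)ᵀ) * A * ((P : Matrix ι ι F) * ((P⁻¹ : GL ι F) : Matrix ι ι F)))
        * (h : Matrix ι ι F)) * (P : Matrix ι ι F) := by simp only [mul_assoc]
    _ = (P : Matrix ι ι F)ᵀ * ((h : Matrix ι ι F)ᵀ * A * (h : Matrix ι ι F)) * (P : Matrix ι ι F) := by
        rw [glT_inv_mul, gl_mul_inv', one_mul, mul_one, ← mul_assoc]
    _ = _ := by rw [hk, mul_smul_comm, smul_mul_assoc]

theorem congr_symm (A A' : Matrix ι ι F) (P : GL ι F) (c : F) (hc : c ≠ 0)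
    (hA : A' = c • ((P : Matrix ι ι F)ᵀ * A * (P : Matrix ι ι F))) :
    A = c⁻¹ • (((P⁻¹ : GL ι F) : Matrix ι ι F)ᵀ * A' * ((P⁻¹ : GL ι F) : Matrix ι ι F)) := by
  rw [hA, mul_smul_comm, smul_mul_assoc, smul_smul, inv_mul_cancel₀ hc, one_smul]
  calc A = (((P⁻¹ : GL ι F) : Matrix ι ι F)ᵀ * (P : Matrix ι ι F)ᵀ) * A
        * ((P : Matrix ι ι F) * ((P⁻¹ : GL ι F) : Matrix ι ι F)) := by
        rw [glT_inv_mul, gl_mul_inv', one_mul, mul_one]
    _ = _ := by simp only [mul_assoc]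

theorem mem_simT_congr (A A' : Matrix ι ι F) (P : GL ι F) (c : F) (hc : c ≠ 0)
    (hA : A' = c • ((P : Matrix ι ι F)ᵀ * A * (P : Matrix ι ι F))) (g : GL ι F) :
    g ∈ simT A' ↔ P * g * P⁻¹ ∈ simT A := by
  constructor
  · intro hg
    have := conj_mem_simT A' A P⁻¹ c⁻¹ (inv_ne_zero hc) (congr_symm A A' P c hc hA) g hg
    rwa [inv_inv] at this
  · intro hg
    have := conj_mem_simT A A' P c hc hA _ hg
    have e : P⁻¹ * (P * g * P⁻¹) * P = g := by group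
    rwa [e] at this

theorem simT_congr (A A' : Matrix ι ι F) (P : GL ι F) (c : F) (hc : c ≠ 0)
    (hA : A' = c • ((P : Matrix ι ι F)ᵀ * A * (P : Matrix ι ι F))) :
    Nonempty (projQuot (simT A') ≃* projQuot (simT A)) := by
  refine projQuot_congr (MulAut.conj P) ?_ _ _ ?_
  · intro g
    constructor
    · intro hg
      exact (Geo.scalars_normal (ι := ι) (F := F)).conj_mem g hg P
    · intro hg
      have := (Geo.scalars_normal (ι := ι) (F := F)).conj_mem _ hg P⁻¹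
      have e : P⁻¹ * (MulAut.conj P g) * P⁻¹⁻¹ = g := by
        rw [MulAut.conj_apply]; group
      rwa [e] at this
  · intro g
    rw [MulAut.conj_apply]
    exact mem_simT_congr A A' P c hc hA g

/-! ### reindexing -/

/-- reindexing of the general linear group -/
def reGL (e : ι ≃ κ) : GL ι F ≃* GL κ F :=
  Units.mapEquiv (Matrix.reindexAlgEquiv F F e).toMulEquiv

theorem reGL_coe (e : ι ≃ κ) (g : GL ι F) :
    (reGL e g : Matrix κ κ F) = (g : Matrix ι ι F).submatrix e.symm e.symm := rfl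

theorem submatrix_inj (e : ι ≃ κ) {M N : Matrix ι ι F}
    (h : M.submatrix e.symm e.symm = N.submatrix e.symm e.symm) : M = N := by
  ext i j
  have := congrFun (congrFun h (e i)) (e j)
  simpa using this

theorem submatrix_smul' (e : κ → ι) (c : F) (M : Matrix ι ι F) :
    (c • M).submatrix e e = c • M.submatrix e e := rfl

theorem mem_scalars_reGL (e : ι ≃ κ) (g : GL ι F) :
    g ∈ Geo.scalars ι F ↔ reGL e g ∈ Geo.scalars κ F := by
  rw [Geo.mem_scalars_iff, Geo.mem_scalars_iff]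
  constructor
  · rintro ⟨c, hc⟩
    refine ⟨c, ?_⟩
    rw [reGL_coe, hc, submatrix_smul', Matrix.submatrix_one_equiv]
  · rintro ⟨c, hc⟩
    refine ⟨c, submatrix_inj e ?_⟩
    rw [← reGL_coe, hc, submatrix_smul', Matrix.submatrix_one_equiv]

theorem mem_simT_reGL (e : ι ≃ κ) (A : Matrix ι ι F) (g : GL ι F) :
    g ∈ simT A ↔ reGL e g ∈ simT (A.submatrix e.symm e.symm) := by
  rw [mem_simT, mem_simT]
  have key : ∀ c : F, (reGL e g : Matrix κ κ F)ᵀ * A.submatrix e.symm e.symm * (reGL e g : Matrix κ κ F)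
      = ((g : Matrix ι ι F)ᵀ * A * (g : Matrix ι ι F)).submatrix e.symm e.symm := by
    intro c
    rw [reGL_coe, Matrix.transpose_submatrix, Matrix.submatrix_mul_equiv, Matrix.submatrix_mul_equiv]
  constructor
  · rintro ⟨c, hc⟩
    exact ⟨c, by rw [key c, hc, submatrix_smul']⟩
  · rintro ⟨c, hc⟩
    refine ⟨c, submatrix_inj e ?_⟩
    rw [← key c, hc, submatrix_smul']

theorem simT_reindex (e : ι ≃ κ) (A : Matrix ι ι F) :
    Nonempty (projQuot (simT A) ≃* projQuot (simT (A.submatrix e.symm e.symm))) :=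
  projQuot_congr (reGL e) (mem_scalars_reGL e) _ _ (mem_simT_reGL e A)

/-! ### quadratic forms and their polar matrices -/

theorem add_transpose_eq_zero (B : Matrix ι ι F) (h : ∀ v : ι → F, v ⬝ᵥ (B *ᵥ v) = 0) :
    B + Bᵀ = 0 := by
  have hd : ∀ i, B i i = 0 := by
    intro i
    have := h (Pi.single i 1)
    simpa using this
  ext i j
  have h3 := h (Pi.single i 1 + Pi.single j 1)
  simp only [Matrix.mulVec_add, dotProduct_add, add_dotProduct, Matrix.mulVec_single_one,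
    single_one_dotProduct, Matrix.col_apply, hd] at h3
  simp only [Matrix.add_apply, Matrix.transpose_apply, Matrix.zero_apply]
  linear_combination h3

theorem dot_mulVec_conj (B g : Matrix ι ι F) (v : ι → F) :
    (g *ᵥ v) ⬝ᵥ (B *ᵥ (g *ᵥ v)) = v ⬝ᵥ ((gᵀ * B * g) *ᵥ v) := by
  rw [← Matrix.mulVec_mulVec, ← Matrix.mulVec_mulVec, Matrix.dotProduct_mulVec v gᵀ,
    Matrix.vecMul_transpose]

theorem quadSim_le_simT (Q : (ι → F) → F) (B : Matrix ι ι F) (hQ : ∀ v, Q v = v ⬝ᵥ (B *ᵥ v)) :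
    Geo.quadSimilarityGroup (F := F) Q ≤ simT (B + Bᵀ) := by
  rintro g ⟨c, hc⟩
  refine ⟨c, ?_⟩
  have h1 : ∀ v : ι → F, v ⬝ᵥ (((g : Matrix ι ι F)ᵀ * B * (g : Matrix ι ι F) - (c : F) • B) *ᵥ v) = 0 := by
    intro v
    rw [Matrix.sub_mulVec, dotProduct_sub, ← dot_mulVec_conj, ← hQ, hc, Matrix.smul_mulVec,
      dotProduct_smul, ← hQ, smul_eq_mul, sub_self]
  have h2 := add_transpose_eq_zero _ h1
  rw [Matrix.transpose_sub, Matrix.transpose_smul, Matrix.transpose_mul, Matrix.transpose_mul,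
    Matrix.transpose_transpose] at h2
  rw [mul_add, add_mul, smul_add]
  have h3 : (g : Matrix ι ι F)ᵀ * B * (g : Matrix ι ι F) + (g : Matrix ι ι F)ᵀ * Bᵀ * (g : Matrix ι ι F)
      - ((c : F) • B + (c : F) • Bᵀ) = 0 := by
    rw [← h2, mul_assoc (g : Matrix ι ι F)ᵀ Bᵀ]
    abel
  exact sub_eq_zero.1 h3

theorem quadSim_eq_simT (h2 : (2 : F) ≠ 0) (Q : (ι → F) → F) (B : Matrix ι ι F)
    (hQ : ∀ v, Q v = v ⬝ᵥ (B *ᵥ v)) :
    Geo.quadSimilarityGroup (F := F) Q = simT (B + Bᵀ) := by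
  apply le_antisymm (quadSim_le_simT Q B hQ)
  rintro g ⟨c, hc⟩
  refine ⟨c, ?_⟩
  have hA : ∀ v : ι → F, v ⬝ᵥ ((B + Bᵀ) *ᵥ v) = 2 * Q v := by
    intro v
    rw [Matrix.add_mulVec, dotProduct_add, ← hQ, Matrix.mulVec_transpose, dotProduct_comm,
      ← Matrix.dotProduct_mulVec, ← hQ, two_mul]
  intro v
  have h3 := hA ((g : Matrix ι ι F) *ᵥ v)
  rw [dot_mulVec_conj, hc, Matrix.smul_mulVec, dotProduct_smul, hA, smul_eq_mul] at h3
  apply mul_left_cancel₀ h2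
  rw [← h3]
  ring

theorem bil_conj (A g : Matrix ι ι F) (u v : ι → F) :
    (g *ᵥ u) ⬝ᵥ (A *ᵥ (g *ᵥ v)) = u ⬝ᵥ ((gᵀ * A * g) *ᵥ v) := by
  rw [← Matrix.mulVec_mulVec, ← Matrix.mulVec_mulVec, Matrix.dotProduct_mulVec u gᵀ,
    Matrix.vecMul_transpose]

theorem ext_bil (M N : Matrix ι ι F) (h : ∀ u v : ι → F, u ⬝ᵥ (M *ᵥ v) = u ⬝ᵥ (N *ᵥ v)) : M = N := by
  ext i j
  have := h (Pi.single i 1) (Pi.single j 1)
  simpa using this

theorem similarity_eq_simT (f : (ι → F) → (ι → F) → F) (A : Matrix ι ι F)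
    (hf : ∀ u v, f u v = u ⬝ᵥ (A *ᵥ v)) : Geo.similarityGroup f = simT A := by
  ext g
  constructor
  · rintro ⟨c, hc⟩
    refine ⟨c, ext_bil _ _ ?_⟩
    intro u v
    rw [← bil_conj, ← hf, hc, hf, Matrix.smul_mulVec, dotProduct_smul, smul_eq_mul]
  · rintro ⟨c, hc⟩
    refine ⟨c, ?_⟩
    intro u v
    rw [hf, hf, bil_conj, hc, Matrix.smul_mulVec, dotProduct_smul, smul_eq_mul]

end Cfsg.Agent.Lib.Helper50Form
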