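import Mathlib
import Cfsg.Prelude
import Cfsg.Agent.Lib.Helper50Form
import Cfsg.Agent.Lib.Helper48AltCongr
import Cfsg.Agent.S0756

set_option autoImplicit false
open Cfsg
open scoped MatrixGroups Matrix

/-! Classification of symmetric / alternating Gram matrices over finite fields up to congruence.
(helper50) -/

namespace Cfsg.Agent.Lib.Helper50FormCl

open Cfsg.Agent.Lib.Helper50Form

universe w

variable {ι : Type} [Fintype ι] [DecidableEq ι] {F : Type*} [Field F]

theorem congr_of_gram (M M' D T T' : Matrix ι ι F) (h : Tᵀ * M * T = D) (h' : T'ᵀ * M' * T' = D)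
    (hD : D.det ≠ 0) : ∃ P : GL ι F, (P : Matrix ι ι F)ᵀ * M * (P : Matrix ι ι F) = M' := by
  have hT : T.det ≠ 0 := by
    intro h0
    apply hD
    rw [← h, Matrix.det_mul, h0, mul_zero]
  have hT' : T'.det ≠ 0 := by
    intro h0
    apply hD
    rw [← h', Matrix.det_mul, h0, mul_zero]
  have hu' : IsUnit T'.det := isUnit_iff_ne_zero.2 hT'
  have hP : (T * T'⁻¹).det ≠ 0 := by
    rw [Matrix.det_mul]
    apply mul_ne_zero hT
    intro h0
    have := Matrix.mul_nonsing_inv T' hu'
    have h1 := congrArg Matrix.det this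
    rw [Matrix.det_mul, h0, mul_zero, Matrix.det_one] at h1
    exact zero_ne_one h1
  refine ⟨Matrix.GeneralLinearGroup.mkOfDetNeZero _ hP, ?_⟩
  show (T * T'⁻¹)ᵀ * M * (T * T'⁻¹) = M'
  rw [Matrix.transpose_mul]
  calc (T'⁻¹)ᵀ * Tᵀ * M * (T * T'⁻¹) = (T'⁻¹)ᵀ * (Tᵀ * M * T) * T'⁻¹ := by simp only [mul_assoc]
    _ = ((T'⁻¹)ᵀ * T'ᵀ) * M' * (T' * T'⁻¹) := by rw [h, ← h']; simp only [mul_assoc]
    _ = M' := by
      rw [← Matrix.transpose_mul, Matrix.mul_nonsing_inv T' hu', Matrix.transpose_one, one_mul, mul_one]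

theorem gram_apply (M : Matrix ι ι F) (b : ι → ι → F) (k l : ι) :
    ((Matrix.of fun i k => b k i)ᵀ * M * (Matrix.of fun i k => b k i)) k l = b k ⬝ᵥ M *ᵥ b l := by
  have h1 : ∀ l, (Matrix.of fun i k => b k i) *ᵥ Pi.single l 1 = b l := by
    intro l
    rw [Matrix.mulVec_single_one]
    rfl
  rw [← h1 k, ← h1 l, bil_conj]
  simp

theorem additive_eq (q : (ι → F) → F) (hadd : ∀ u v, q (u + v) = q u + q v) (v : ι → F) :
    q v = ∑ i, q (Pi.single i (v i)) := by
  let qh : (ι → F) →+ F := AddMonoidHom.mk' q hadd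
  have : qh v = ∑ i, qh (Pi.single i (v i)) := by
    rw [← map_sum, Finset.univ_sum_single]
  exact this

/-- alternating matrices -/
def IsAltM (M : Matrix ι ι F) : Prop := Mᵀ = -M ∧ ∀ i, M i i = 0

theorem IsAltM.dot_self {M : Matrix ι ι F} (hM : IsAltM M) (v : ι → F) : v ⬝ᵥ M *ᵥ v = 0 := by
  have hsk : ∀ u v : ι → F, v ⬝ᵥ M *ᵥ u = - (u ⬝ᵥ M *ᵥ v) := by
    intro u v
    rw [Matrix.dotProduct_mulVec, ← Matrix.mulVec_transpose, hM.1, Matrix.neg_mulVec, neg_dotProduct,
      dotProduct_comm]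
  rw [additive_eq (fun v => v ⬝ᵥ M *ᵥ v) ?_ v]
  · apply Finset.sum_eq_zero
    intro i _
    simp [hM.2 i]
  · intro u v
    simp only [Matrix.mulVec_add, dotProduct_add, add_dotProduct]
    rw [hsk u v]
    ring

theorem isAltM_of_dot_self {M : Matrix ι ι F} (h : ∀ v : ι → F, v ⬝ᵥ M *ᵥ v = 0) : IsAltM M := by
  constructor
  · have := add_transpose_eq_zero M h
    exact (neg_eq_of_add_eq_zero_right this).symm ▸ rfl
  · intro i
    have := h (Pi.single i 1)
    simpa using this

theorem IsAltM.congr {M : Matrix ι ι F} (hM : IsAltM M) (P : Matrix ι ι F) (c : F) :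
    IsAltM (c • (Pᵀ * M * P)) := by
  apply isAltM_of_dot_self
  intro v
  rw [Matrix.smul_mulVec, dotProduct_smul, ← bil_conj, hM.dot_self, smul_zero]

theorem toBilin'_ker (M : Matrix ι ι F) (hM : M.det ≠ 0) : LinearMap.ker (Matrix.toBilin' M) = ⊥ := by
  have h1 : (Matrix.toBilin' M).Nondegenerate :=
    Matrix.Nondegenerate.toBilin' (Matrix.nondegenerate_of_det_ne_zero hM)
  exact LinearMap.separatingLeft_iff_ker_eq_bot.1 h1.1

theorem alt_congr (M M' : Matrix ι ι F) (hM : IsAltM M) (hM' : IsAltM M') (hd : M.det ≠ 0)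
    (hd' : M'.det ≠ 0) : ∃ P : GL ι F, (P : Matrix ι ι F)ᵀ * M * (P : Matrix ι ι F) = M' := by
  obtain ⟨Q, hQ⟩ := Cfsg.Agent.Lib.Helper48AltCongr.exists_congr (Matrix.toBilin' M) (Matrix.toBilin' M')
    (fun v => by rw [Matrix.toBilin'_apply']; exact hM.dot_self v)
    (fun v => by rw [Matrix.toBilin'_apply']; exact hM'.dot_self v)
    (by rw [toBilin'_ker M hd, toBilin'_ker M' hd'])
  have e : (LinearMap.toMatrix' Q)ᵀ * M * (LinearMap.toMatrix' Q) = M' := by
    apply ext_bil
    intro u v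
    rw [← bil_conj, LinearMap.toMatrix'_mulVec, LinearMap.toMatrix'_mulVec, ← Matrix.toBilin'_apply',
      hQ, Matrix.toBilin'_apply']
  have hP : (LinearMap.toMatrix' Q).det ≠ 0 := by
    intro h0
    apply hd'
    rw [← e, Matrix.det_mul, h0, mul_zero]
  exact ⟨Matrix.GeneralLinearGroup.mkOfDetNeZero _ hP, e⟩

/-! ### symmetric forms, odd characteristic -/

theorem sym_diag [Finite F] (h2 : (2 : F) ≠ 0) {k : ℕ} (M : Matrix (Fin (k + 1)) (Fin (k + 1)) F)
    (hM : Mᵀ = M) (hdet : M.det ≠ 0) (α : F) (hα : ¬ IsSquare α) :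
    ∃ (T : Matrix (Fin (k + 1)) (Fin (k + 1)) F) (d : F), (d = 1 ∨ d = α) ∧
      Tᵀ * M * T = Matrix.diagonal (fun i => if i = Fin.last k then d else 1) := by
  have hS : (Matrix.toBilin' M).IsSymm := by
    rw [LinearMap.BilinForm.isSymm_def]
    intro x y
    rw [Matrix.toBilin'_apply', Matrix.toBilin'_apply', Matrix.dotProduct_mulVec,
      ← Matrix.mulVec_transpose, hM, dotProduct_comm]
  have hB : (Matrix.toBilin' M).Nondegenerate :=
    Matrix.Nondegenerate.toBilin' (Matrix.nondegenerate_of_det_ne_zero hdet)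
  obtain ⟨b, h1, h3, h4⟩ := Cfsg.Agent.S0756.result h2 (Matrix.toBilin' M) hS hB (n := k) (by simp) α hα
  refine ⟨Matrix.of fun i k => b k i, Matrix.toBilin' M (b (Fin.last k)) (b (Fin.last k)), h4, ?_⟩
  ext i j
  rw [gram_apply, ← Matrix.toBilin'_apply']
  by_cases hij : i = j
  · subst hij
    rw [Matrix.diagonal_apply_eq]
    by_cases hi : i = Fin.last k
    · rw [if_pos hi, hi]
    · rw [if_neg hi, h3 i hi]
  · rw [Matrix.diagonal_apply_ne _ hij, h1 i j hij]

theorem det_diag_last {k : ℕ} (d : F) :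
    (Matrix.diagonal (fun i : Fin (k + 1) => if i = Fin.last k then d else 1)).det = d := by
  rw [Matrix.det_diagonal, Finset.prod_ite_eq' Finset.univ (Fin.last k) (fun _ => d)]
  simp

theorem sym_congr [Finite F] (h2 : (2 : F) ≠ 0) {n : ℕ} (M M' : Matrix (Fin n) (Fin n) F)
    (hM : Mᵀ = M) (hM' : M'ᵀ = M') (hd : M.det ≠ 0) (hd' : M'.det ≠ 0)
    (hsq : IsSquare (M.det * M'.det)) :
    ∃ P : GL (Fin n) F, (P : Matrix (Fin n) (Fin n) F)ᵀ * M * (P : Matrix (Fin n) (Fin n) F) = M' := by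
  cases n with
  | zero => exact ⟨1, Subsingleton.elim _ _⟩
  | succ k =>
    have hchar : ringChar F ≠ 2 := by
      intro h
      apply h2
      have := ringChar.Nat.cast_ringChar (R := F)
      rw [h] at this
      exact_mod_cast this
    obtain ⟨α, hα⟩ := FiniteField.exists_nonsquare hchar
    obtain ⟨T, d, hdd, e⟩ := sym_diag h2 M hM hd α hα
    obtain ⟨T', d', hdd', e'⟩ := sym_diag h2 M' hM' hd' α hα
    have k1 := congrArg Matrix.det e
    have k2 := congrArg Matrix.det e'
    rw [Matrix.det_mul, Matrix.det_mul, Matrix.det_transpose, det_diag_last] at k1 k2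
    have hα0 : α ≠ 0 := by
      rintro rfl
      exact hα ⟨0, by simp⟩
    have hsq2 : IsSquare (d * d') := by
      obtain ⟨s, hs⟩ := hsq
      refine ⟨T.det * T'.det * s, ?_⟩
      rw [← k1, ← k2]
      linear_combination (T.det * T.det * T'.det * T'.det) * hs
    have hdeq : d = d' := by
      rcases hdd with rfl | rfl <;> rcases hdd' with rfl | rfl
      · rfl
      · rw [one_mul] at hsq2; exact absurd hsq2 hα
      · rw [mul_one] at hsq2; exact absurd hsq2 hα
      · rfl
    subst hdeq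
    refine congr_of_gram M M' _ T T' e e' ?_
    rw [det_diag_last]
    rcases hdd with rfl | rfl
    · exact one_ne_zero
    · exact hα0

/-! ### symmetric non-alternating forms, characteristic two -/

section chartwo

variable [CharP F 2]

theorem two_eq_zero' : (2 : F) = 0 := by
  have := CharP.cast_eq_zero F 2
  exact_mod_cast this

theorem add_self' (a : F) : a + a = 0 := by
  rw [← two_mul, two_eq_zero', zero_mul]

theorem exists_good {V : Type*} [AddCommGroup V] [Module F V] [FiniteDimensional F V]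
    (B : LinearMap.BilinForm F V) (hS : B.IsSymm) (hB : B.Nondegenerate)
    (hn : 2 ≤ Module.finrank F V) (hna : ∃ v, B v v ≠ 0) :
    ∃ v w, B v v ≠ 0 ∧ B v w = 0 ∧ B w w ≠ 0 := by
  obtain ⟨v, hv⟩ := hna
  by_cases h : ∃ w, B v w = 0 ∧ B w w ≠ 0
  · obtain ⟨w, h1, h2⟩ := h
    exact ⟨v, w, hv, h1, h2⟩
  push Not at h
  have hsym : ∀ x y, B x y = B y x := LinearMap.BilinForm.isSymm_def.1 hS
  have hW : Module.finrank F ↥(B.orthogonal (F ∙ v)) = Module.finrank F V - 1 := by
    rw [LinearMap.BilinForm.finrank_orthogonal hB, finrank_span_singleton]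
    rintro rfl
    simp at hv
  have hWne : B.orthogonal (F ∙ v) ≠ ⊥ := by
    intro h0
    rw [h0, finrank_bot] at hW
    omega
  obtain ⟨x, hxW, hx0⟩ := Submodule.exists_mem_ne_zero_of_ne_bot hWne
  have hvx : B v x = 0 := by
    rw [LinearMap.BilinForm.mem_orthogonal_iff] at hxW
    exact hxW v (Submodule.mem_span_singleton_self v)
  obtain ⟨y₀, hy₀⟩ : ∃ y, B x y ≠ 0 := by
    by_contra hcon
    push Not at hcon
    exact hx0 (hB.1 x hcon)
  obtain ⟨y, hy⟩ : ∃ y, y = y₀ - (B v y₀ / B v v) • v := ⟨_, rfl⟩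
  have hvy : B v y = 0 := by
    rw [hy, map_sub, map_smul, smul_eq_mul, div_mul_cancel₀ _ hv, sub_self]
  have hxy : B x y ≠ 0 := by
    rw [hy, map_sub, map_smul, hsym x v, hvx, smul_zero, sub_zero]
    exact hy₀
  refine ⟨v + x, y + (B x y / B v v) • v, ?_, ?_, ?_⟩
  · simp only [map_add, LinearMap.add_apply]
    rw [hsym x v, hvx, h x hvx]
    simpa using hv
  · simp only [map_add, LinearMap.add_apply, map_smul, smul_eq_mul]
    rw [hsym x v, hvx, hvy, add_zero, div_mul_cancel₀ _ hv, zero_add, add_self']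
  · simp only [map_add, LinearMap.add_apply, map_smul, LinearMap.smul_apply, smul_eq_mul]
    rw [hsym y v, hvy, h y hvy]
    simp only [mul_zero, add_zero, zero_add]
    exact mul_ne_zero (div_ne_zero hxy hv) (mul_ne_zero (div_ne_zero hxy hv) hv)

theorem exists_on (hsq : ∀ a : F, ∃ b, b * b = a) (n : ℕ) :
    ∀ {V : Type w} [AddCommGroup V] [Module F V] [FiniteDimensional F V]
    (B : LinearMap.BilinForm F V) (_ : B.IsSymm) (_ : B.Nondegenerate)
    (_ : Module.finrank F V = n) (_ : n = 0 ∨ ∃ v, B v v ≠ 0),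
    ∃ b : Fin n → V, ∀ i j, B (b i) (b j) = if i = j then 1 else 0 := by
  induction n with
  | zero =>
    intro V _ _ _ B _ _ _ _
    exact ⟨fun i => i.elim0, fun i => i.elim0⟩
  | succ n ih =>
    intro V _ _ _ B hS hB hn hna
    have hna' : ∃ v, B v v ≠ 0 := by
      rcases hna with h | h
      · omega
      · exact h
    have hsym : ∀ x y, B x y = B y x := LinearMap.BilinForm.isSymm_def.1 hS
    obtain ⟨v, hv, hw⟩ : ∃ v, B v v ≠ 0 ∧ (n = 0 ∨ ∃ w, B v w = 0 ∧ B w w ≠ 0) := by
      by_cases h0 : n = 0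
      · obtain ⟨v, hv⟩ := hna'
        exact ⟨v, hv, Or.inl h0⟩
      · obtain ⟨v, w, h1, h2, h3⟩ := exists_good B hS hB (by omega) hna'
        exact ⟨v, h1, Or.inr ⟨w, h2, h3⟩⟩
    have hv0 : v ≠ 0 := by
      rintro rfl
      simp at hv
    have hW : Module.finrank F ↥(B.orthogonal (F ∙ v)) = n := by
      rw [LinearMap.BilinForm.finrank_orthogonal hB, finrank_span_singleton hv0, hn]
      rfl
    have hmemW : ∀ w, B v w = 0 → w ∈ B.orthogonal (F ∙ v) := by
      intro w hw
      rw [LinearMap.BilinForm.mem_orthogonal_iff]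
      intro x hx
      obtain ⟨c, rfl⟩ := Submodule.mem_span_singleton.1 hx
      show B (c • v) w = 0
      rw [map_smul, LinearMap.smul_apply, hw, smul_zero]
    obtain ⟨b', hb'⟩ := ih (B.restrict (B.orthogonal (F ∙ v)))
      (by
        rw [LinearMap.BilinForm.isSymm_def]
        intro x y
        exact hsym _ _)
      (LinearMap.BilinForm.restrict_nondegenerate_orthogonal_spanSingleton B hB hS.isRefl hv) hW
      (by
        rcases hw with h | ⟨w, h1, h2⟩
        · exact Or.inl h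
        · exact Or.inr ⟨⟨w, hmemW w h1⟩, h2⟩)
    obtain ⟨s, hs⟩ := hsq (B v v)
    have hs0 : s ≠ 0 := by
      rintro rfl
      rw [mul_zero] at hs
      exact hv hs.symm
    have hvb : ∀ j, B v (b' j : V) = 0 := by
      intro j
      have := (b' j).2
      rw [LinearMap.BilinForm.mem_orthogonal_iff] at this
      exact this v (Submodule.mem_span_singleton_self v)
    refine ⟨Fin.cons (s⁻¹ • v) (fun i => (b' i : V)), ?_⟩
    intro i j
    refine Fin.cases ?_ (fun i => ?_) i <;> refine Fin.cases ?_ (fun j => ?_) j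
    · simp only [Fin.cons_zero, map_smul, LinearMap.smul_apply, smul_eq_mul, if_true]
      rw [← hs]
      field_simp
    · simp only [Fin.cons_zero, Fin.cons_succ, map_smul, LinearMap.smul_apply, smul_eq_mul]
      rw [hvb, mul_zero, if_neg (Fin.succ_ne_zero j).symm]
    · simp only [Fin.cons_zero, Fin.cons_succ, map_smul, smul_eq_mul]
      rw [hsym, hvb, mul_zero, if_neg (Fin.succ_ne_zero i)]
    · simp only [Fin.cons_succ]
      have : B (b' i : V) (b' j : V) = if i = j then 1 else 0 := hb' i j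
      rw [this]
      simp only [Fin.succ_inj]

theorem sym_congr_two (hsq : ∀ a : F, ∃ b, b * b = a) {n : ℕ} (M M' : Matrix (Fin n) (Fin n) F)
    (hM : Mᵀ = M) (hM' : M'ᵀ = M') (hd : M.det ≠ 0) (hd' : M'.det ≠ 0)
    (hna : ∃ i, M i i ≠ 0) (hna' : ∃ i, M' i i ≠ 0) :
    ∃ P : GL (Fin n) F, (P : Matrix (Fin n) (Fin n) F)ᵀ * M * (P : Matrix (Fin n) (Fin n) F) = M' := by
  have main : ∀ M : Matrix (Fin n) (Fin n) F, Mᵀ = M → M.det ≠ 0 → (∃ i, M i i ≠ 0) →
      ∃ T : Matrix (Fin n) (Fin n) F, Tᵀ * M * T = 1 := by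
    intro M hM hd hna
    have hS : (Matrix.toBilin' M).IsSymm := by
      rw [LinearMap.BilinForm.isSymm_def]
      intro x y
      rw [Matrix.toBilin'_apply', Matrix.toBilin'_apply', Matrix.dotProduct_mulVec,
        ← Matrix.mulVec_transpose, hM, dotProduct_comm]
    have hB : (Matrix.toBilin' M).Nondegenerate :=
      Matrix.Nondegenerate.toBilin' (Matrix.nondegenerate_of_det_ne_zero hd)
    obtain ⟨b, hb⟩ := exists_on hsq n (Matrix.toBilin' M) hS hB (by simp) (by
      right
      obtain ⟨i, hi⟩ := hna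
      refine ⟨Pi.single i 1, ?_⟩
      rw [Matrix.toBilin'_apply']
      simpa using hi)
    refine ⟨Matrix.of fun i k => b k i, ?_⟩
    ext i j
    rw [gram_apply, ← Matrix.toBilin'_apply', hb, Matrix.one_apply]
  obtain ⟨T, hT⟩ := main M hM hd hna
  obtain ⟨T', hT'⟩ := main M' hM' hd' hna'
  exact congr_of_gram M M' 1 T T' hT hT' (by simp)

end chartwo

end Cfsg.Agent.Lib.Helper50FormCl
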