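import Mathlib
import Cfsg.Prelude
import Cfsg.Agent.Lib.Helper42LBDefs
import Cfsg.Agent.Lib.Helper42BalB
import Cfsg.Agent.Lib.Helper50FormCl
import Cfsg.Agent.Lib.Helper48AltForm

set_option autoImplicit false
set_option linter.unusedSectionVars false

namespace Cfsg.Agent.Lib.Helper76LBS1

open Matrix Cfsg Cfsg.Agent.Lib.Helper50Aut Cfsg.Agent.Lib.Helper50AutStr
  Cfsg.Agent.Lib.Helper42BalA Cfsg.Agent.Lib.Helper49EichGen Cfsg.Agent.Lib.Helper42LBDefs
  Cfsg.Agent.Lib.Helper50FormCl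

variable {F : Type*} [Field F] [Fintype F] {n : ℕ}

local notation "SLn" => Matrix.SpecialLinearGroup (Fin n) F
local notation "Mn" => Matrix (Fin n) (Fin n) F
local notation "π" => (QuotientGroup.mk : Matrix.SpecialLinearGroup (Fin n) F →
  Matrix.SpecialLinearGroup (Fin n) F ⧸ Subgroup.center (Matrix.SpecialLinearGroup (Fin n) F))

theorem isAltM_of_skew {ι : Type} [Fintype ι] [DecidableEq ι] (h2 : (2 : F) ≠ 0)
    (M : Matrix ι ι F) (hM : Mᵀ = -M) : IsAltM M := by
  refine ⟨hM, fun i => ?_⟩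
  have h := congrFun (congrFun hM i) i
  simp only [Matrix.transpose_apply, Matrix.neg_apply] at h
  have h3 : (2 : F) * M i i = 0 := by
    rw [two_mul]
    nth_rewrite 1 [h]
    exact neg_add_cancel _
  exact (mul_eq_zero.mp h3).resolve_left h2

section transport
variable {m : ℕ}

/-- the standard form on `Fin (m + m)` -/
def J' (m : ℕ) (F : Type*) [Field F] : Matrix (Fin (m + m)) (Fin (m + m)) F :=
  (Matrix.J (Fin m) F).submatrix finSumFinEquiv.symm finSumFinEquiv.symm

/-- transport of a symplectic matrix -/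
def sub (A : Matrix (Fin m ⊕ Fin m) (Fin m ⊕ Fin m) F) : Matrix (Fin (m + m)) (Fin (m + m)) F :=
  A.submatrix finSumFinEquiv.symm finSumFinEquiv.symm

theorem sub_mul (A B : Matrix (Fin m ⊕ Fin m) (Fin m ⊕ Fin m) F) : sub (A * B) = sub A * sub B :=
  (Matrix.submatrix_mul_equiv A B _ _ _).symm

theorem sub_one : sub (1 : Matrix (Fin m ⊕ Fin m) (Fin m ⊕ Fin m) F) = 1 :=
  Matrix.submatrix_one_equiv _

theorem sub_transpose (A : Matrix (Fin m ⊕ Fin m) (Fin m ⊕ Fin m) F) : (sub A)ᵀ = sub Aᵀ := rfl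

theorem det_sub (A : Matrix (Fin m ⊕ Fin m) (Fin m ⊕ Fin m) F) : (sub A).det = A.det :=
  Matrix.det_submatrix_equiv_self _ _

variable (R R' g : Matrix (Fin (m + m)) (Fin (m + m)) F)

/-- the isomorphism `Sp → isoS g` -/
def Psi (h1 : R * R' = 1) (h2 : R * g * Rᵀ = J' m F) :
    Matrix.symplecticGroup (Fin m) F →* ↥(isoS (n := m + m) g) where
  toFun A := ⟨⟨R' * sub A.1 * R, by
      rw [Matrix.det_mul, Matrix.det_mul, det_sub, SymplecticGroup.det_eq_one A.2, mul_one,
        ← Matrix.det_mul, mul_eq_one_comm.mp h1, Matrix.det_one]⟩, by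
      show R' * sub A.1 * R * g * (R' * sub A.1 * R)ᵀ = g
      have hA : sub A.1 * J' m F * (sub A.1)ᵀ = J' m F := by
        have := (SymplecticGroup.mem_iff).mp A.2
        show sub A.1 * sub (Matrix.J (Fin m) F) * (sub A.1)ᵀ = sub (Matrix.J (Fin m) F)
        rw [sub_transpose, ← sub_mul, ← sub_mul, this]
      have h1' : R' * R = 1 := mul_eq_one_comm.mp h1
      have h3 : Rᵀ * R'ᵀ = 1 := by rw [← Matrix.transpose_mul, h1', Matrix.transpose_one]
      have hg : g = R' * J' m F * R'ᵀ := by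
        rw [← h2]
        calc g = (R' * R) * g * (Rᵀ * R'ᵀ) := by rw [h1', h3, Matrix.one_mul, Matrix.mul_one]
          _ = R' * (R * g * Rᵀ) * R'ᵀ := by simp only [Matrix.mul_assoc]
      rw [Matrix.transpose_mul, Matrix.transpose_mul]
      calc R' * sub A.1 * R * g * (Rᵀ * ((sub A.1)ᵀ * R'ᵀ))
          = R' * (sub A.1 * (R * g * Rᵀ) * (sub A.1)ᵀ) * R'ᵀ := by simp only [Matrix.mul_assoc]
        _ = g := by rw [h2, hA, ← hg]⟩
  map_one' := by
    apply Subtype.ext
    apply Subtype.ext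
    show R' * sub (1 : Matrix (Fin m ⊕ Fin m) (Fin m ⊕ Fin m) F) * R = 1
    rw [sub_one, Matrix.mul_one, mul_eq_one_comm.mp h1]
  map_mul' := by
    intro A B
    apply Subtype.ext
    apply Subtype.ext
    show R' * sub (A.1 * B.1) * R = (R' * sub A.1 * R) * (R' * sub B.1 * R)
    rw [sub_mul]
    calc R' * (sub A.1 * sub B.1) * R = R' * sub A.1 * 1 * sub B.1 * R := by
          simp only [Matrix.mul_assoc, Matrix.one_mul]
      _ = R' * sub A.1 * R * (R' * sub B.1 * R) := by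
          rw [← h1]; simp only [Matrix.mul_assoc]

theorem Psi_coe (h1 : R * R' = 1) (h2 : R * g * Rᵀ = J' m F)
    (A : Matrix.symplecticGroup (Fin m) F) :
    (((Psi R R' g h1 h2 A : ↥(isoS (n := m + m) g)) : Matrix.SpecialLinearGroup (Fin (m + m)) F) :
      Matrix (Fin (m + m)) (Fin (m + m)) F) = R' * sub A.1 * R := rfl

theorem Psi_surjective (h1 : R * R' = 1) (h2 : R * g * Rᵀ = J' m F) :
    Function.Surjective (Psi R R' g h1 h2) := by
  intro s
  have h1' : R' * R = 1 := mul_eq_one_comm.mp h1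
  have h3 : R'ᵀ * Rᵀ = 1 := by rw [← Matrix.transpose_mul, h1, Matrix.transpose_one]
  have hs : (s.1 : Matrix (Fin (m + m)) (Fin (m + m)) F) * g * (s.1 : Matrix _ _ F)ᵀ = g := s.2
  let A : Matrix (Fin m ⊕ Fin m) (Fin m ⊕ Fin m) F :=
    (R * (s.1 : Matrix (Fin (m + m)) (Fin (m + m)) F) * R').submatrix finSumFinEquiv finSumFinEquiv
  have hsubA : sub A = R * (s.1 : Matrix (Fin (m + m)) (Fin (m + m)) F) * R' := by
    ext i j
    simp [sub, A]
  have hinj : ∀ X Y : Matrix (Fin m ⊕ Fin m) (Fin m ⊕ Fin m) F, sub X = sub Y → X = Y := by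
    intro X Y h
    ext i j
    have := congrFun (congrFun h (finSumFinEquiv i)) (finSumFinEquiv j)
    simpa [sub] using this
  have hA : A ∈ Matrix.symplecticGroup (Fin m) F := by
    rw [SymplecticGroup.mem_iff]
    apply hinj
    rw [sub_mul, sub_mul, ← sub_transpose, hsubA]
    show R * _ * R' * J' m F * _ = J' m F
    rw [← h2, Matrix.transpose_mul, Matrix.transpose_mul]
    calc R * (s.1 : Matrix (Fin (m + m)) (Fin (m + m)) F) * R' * (R * g * Rᵀ) *
          (R'ᵀ * ((s.1 : Matrix (Fin (m + m)) (Fin (m + m)) F)ᵀ * Rᵀ))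
        = R * ((s.1 : Matrix (Fin (m + m)) (Fin (m + m)) F) * ((R' * R) * g * (Rᵀ * R'ᵀ)) *
          (s.1 : Matrix (Fin (m + m)) (Fin (m + m)) F)ᵀ) * Rᵀ := by simp only [Matrix.mul_assoc]
      _ = R * g * Rᵀ := by
          rw [h1', ← Matrix.transpose_mul, h1', Matrix.transpose_one, Matrix.one_mul,
            Matrix.mul_one, hs]
  refine ⟨⟨A, hA⟩, ?_⟩
  apply Subtype.ext
  apply Subtype.ext
  rw [Psi_coe]
  show R' * sub A * R = _
  rw [hsubA]
  calc R' * (R * (s.1 : Matrix (Fin (m + m)) (Fin (m + m)) F) * R') * R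
      = (R' * R) * (s.1 : Matrix (Fin (m + m)) (Fin (m + m)) F) * (R' * R) := by
        simp only [Matrix.mul_assoc]
    _ = _ := by rw [h1', Matrix.one_mul, Matrix.mul_one]

end transport

theorem mk_eq_one_of_coe {x : SLn} (h : (x : Mn) = 1 ∨ (x : Mn) = -1) : π x = 1 := by
  rw [QuotientGroup.eq_one_iff, Subgroup.mem_center_iff]
  intro y
  apply Subtype.ext
  rw [Matrix.SpecialLinearGroup.coe_mul, Matrix.SpecialLinearGroup.coe_mul]
  rcases h with h | h <;> rw [h] <;> simp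

open Cfsg.Agent.Lib.Helper42BalB in
/-- piece S1 -/
theorem symp_H3 (hn : 3 ≤ n) (h2 : (2 : F) ≠ 0) (g : GL (Fin n) F) (hg : (g : Mn)ᵀ = -(g : Mn))
    (N : Subgroup ↥(isoS (g : Mn))) (hN : N.Normal) :
    (∀ x ∈ N, π (x : SLn) = 1) ∨ ∃ t ∈ N, orderOf (π (t : SLn)) = 2 := by
  have hgalt := isAltM_of_skew h2 (g : Mn) hg
  have heven : Even n := by
    have := Cfsg.Agent.Lib.Helper48AltForm.even_card_of_alt (g : Mn) ((g⁻¹ : GL (Fin n) F) : Mn)
      (by rw [← Units.val_mul, mul_inv_cancel]; rfl) (fun x => hgalt.dot_self x)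
    simpa using this
  obtain ⟨m, rfl⟩ := heven
  have hm : 2 ≤ m := by omega
  have hJalt : IsAltM (J' m F) := isAltM_of_skew h2 _ (by
    show (sub (Matrix.J (Fin m) F))ᵀ = - sub (Matrix.J (Fin m) F)
    rw [sub_transpose, Matrix.J_transpose]; rfl)
  have hJdet : (J' m F).det ≠ 0 := by
    show (sub (Matrix.J (Fin m) F)).det ≠ 0
    rw [det_sub]
    exact (Matrix.isUnit_det_J (Fin m) F).ne_zero
  have hgdet : (g : Matrix (Fin (m + m)) (Fin (m + m)) F).det ≠ 0 :=
    ((Matrix.isUnit_iff_isUnit_det _).mp g.isUnit).ne_zero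
  obtain ⟨P, hP⟩ := alt_congr (g : Matrix (Fin (m + m)) (Fin (m + m)) F) (J' m F) hgalt hJalt
    hgdet hJdet
  obtain ⟨R, hR⟩ : ∃ R : Matrix (Fin (m + m)) (Fin (m + m)) F,
    R = (P : Matrix (Fin (m + m)) (Fin (m + m)) F)ᵀ := ⟨_, rfl⟩
  obtain ⟨R', hR'⟩ : ∃ R' : Matrix (Fin (m + m)) (Fin (m + m)) F,
    R' = ((P⁻¹ : GL (Fin (m + m)) F) : Matrix (Fin (m + m)) (Fin (m + m)) F)ᵀ := ⟨_, rfl⟩
  have h1 : R * R' = 1 := by
    rw [hR, hR', ← Matrix.transpose_mul, ← Units.val_mul, inv_mul_cancel]; simp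
  have h1' : R' * R = 1 := mul_eq_one_comm.mp h1
  have h2' : R * (g : Matrix (Fin (m + m)) (Fin (m + m)) F) * Rᵀ = J' m F := by
    rw [hR, Matrix.transpose_transpose]; exact hP
  have hΨs := Psi_surjective R R' (g : Matrix (Fin (m + m)) (Fin (m + m)) F) h1 h2'
  obtain ⟨Ψ, hΨ⟩ : ∃ Ψ, Ψ = Psi R R' (g : Matrix (Fin (m + m)) (Fin (m + m)) F) h1 h2' := ⟨_, rfl⟩
  rw [← hΨ] at hΨs
  obtain ⟨r, hr⟩ := CharP.exists F
  rcases normal_dich (F₀ := F) (m := m) (by omega) (N.comap Ψ) (hN.comap Ψ) with h | h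
  · left
    intro x hx
    obtain ⟨A, rfl⟩ := hΨs x
    have hA : A ∈ Subgroup.center (Matrix.symplecticGroup (Fin m) F) := h hx
    apply mk_eq_one_of_coe
    rw [hΨ, Psi_coe]
    rcases (Cfsg.Agent.Lib.Helper45Sp.mem_center_iff (by omega) A).mp hA with hA | hA
    · left
      rw [hA, sub_one, Matrix.mul_one, h1']
    · right
      have : sub (-1 : Matrix (Fin m ⊕ Fin m) (Fin m ⊕ Fin m) F) = -1 := by
        have : sub (-1 : Matrix (Fin m ⊕ Fin m) (Fin m ⊕ Fin m) F)
            = - sub (1 : Matrix (Fin m ⊕ Fin m) (Fin m ⊕ Fin m) F) := rfl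
        rw [this, sub_one]
      rw [hA, this, Matrix.mul_neg, Matrix.mul_one, Matrix.neg_mul, h1']
  · right
    have hmem := pow_mem r (N.comap Ψ) (hN.comap Ψ) h (invT m F)
    have hrp : r.Prime := CharP.char_is_prime F r
    have hodd : Odd r := by
      rcases hrp.eq_two_or_odd' with h | h
      · exfalso
        apply h2
        have := CharP.cast_eq_zero F r
        rw [h] at this
        exact_mod_cast this
      · exact h
    have hT : invT m F ^ r = invT m F := by
      obtain ⟨k, hk⟩ := hodd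
      rw [hk, pow_succ, pow_mul, pow_two, invT_mul, one_pow, one_mul]
    rw [hT] at hmem
    refine ⟨Ψ (invT m F), hmem, ?_⟩
    apply orderOf_eq_prime
    · rw [← QuotientGroup.mk_pow, ← Subgroup.coe_pow, ← map_pow, pow_two, invT_mul, map_one]
      rfl
    · intro hc
      rw [QuotientGroup.eq_one_iff, Matrix.SpecialLinearGroup.mem_center_iff] at hc
      obtain ⟨c, -, hc⟩ := hc
      rw [hΨ, Psi_coe] at hc
      have h3 : sub (invT m F).1 = Matrix.scalar (Fin (m + m)) c := by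
        calc sub (invT m F).1 = (R * R') * sub (invT m F).1 * (R * R') := by
              rw [h1, Matrix.one_mul, Matrix.mul_one]
          _ = R * (R' * sub (invT m F).1 * R) * R' := by simp only [Matrix.mul_assoc]
          _ = R * Matrix.scalar (Fin (m + m)) c * R' := by rw [← hc]
          _ = Matrix.scalar (Fin (m + m)) c * (R * R') := by
              rw [← (Matrix.scalar_commute c (fun _ => mul_comm _ _) R).eq, Matrix.mul_assoc]
          _ = Matrix.scalar (Fin (m + m)) c := by rw [h1, Matrix.mul_one]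
      have ee : ∀ a : Fin m ⊕ Fin m, (Cfsg.Agent.Lib.Helper42BalB.invT m F).1 a a = c := by
        intro a
        have := congrFun (congrFun h3 (finSumFinEquiv a)) (finSumFinEquiv a)
        rw [Matrix.scalar_apply, Matrix.diagonal_apply_eq] at this
        simpa only [sub, Matrix.submatrix_apply, Equiv.symm_apply_apply] using this
      have e0 := ee (Sum.inl ⟨0, by omega⟩)
      have e1 := ee (Sum.inl ⟨1, by omega⟩)
      simp [Cfsg.Agent.Lib.Helper42BalB.invT, Cfsg.Agent.Lib.Helper42BalB.invD] at e0 e1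
      apply h2
      have : (2 : F) = 1 - (-1) := by ring
      rw [this, e0, ← e1, sub_self]

end Cfsg.Agent.Lib.Helper76LBS1
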