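import Mathlib
import Cfsg.Prelude
import Cfsg.Agent.Lib.Helper42LBDefs

set_option autoImplicit false
set_option linter.unusedSectionVars false

/-! PROJECT 42, piece O2: similitudes normalise the group generated by the Eichler transformations. -/

namespace Cfsg.Agent.Lib.Helper95LBO2

open Matrix Cfsg Cfsg.Agent.Lib.Helper50Aut Cfsg.Agent.Lib.Helper50AutStr
  Cfsg.Agent.Lib.Helper42BalA Cfsg.Agent.Lib.Helper49EichGen Cfsg.Agent.Lib.Helper42LBDefs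
  Cfsg.Agent.Lib.Helper49Eich Cfsg.Agent.Lib.Helper49Orth

section gen

variable {F : Type*} [Field F] {ι : Type} [Fintype ι] [DecidableEq ι]

lemma polar_sim (Q : QuadraticForm F (ι → F)) (X : Matrix ι ι F) (c : F)
    (hX : ∀ v, Q (X *ᵥ v) = c * Q v) (u v : ι → F) :
    QuadraticMap.polar ⇑Q (X *ᵥ u) (X *ᵥ v) = c * QuadraticMap.polar ⇑Q u v := by
  unfold QuadraticMap.polar
  rw [← Matrix.mulVec_add, hX, hX, hX]
  ring

/-- conjugation by a similitude normalises `TT Q` -/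
theorem conj_TT (Q : QuadraticForm F (ι → F)) (X : GL ι F) (c : F) (hc : c ≠ 0)
    (hX : ∀ v, Q ((X : Matrix ι ι F) *ᵥ v) = c * Q v) (τ : ↥(Cfsg.isometryGroup F ⇑Q))
    (hτ : τ ∈ TT Q) :
    ∃ τ' ∈ TT Q, ((τ' : ↥(Cfsg.isometryGroup F ⇑Q)) : GL ι F) = X * (τ : GL ι F) * X⁻¹ := by
  unfold TT at hτ
  induction hτ using Subgroup.closure_induction with
  | mem x hx =>
    obtain ⟨e, w, he, hw, rfl⟩ := hx
    have he' : Q ((X : Matrix ι ι F) *ᵥ e) = 0 := by rw [hX, he, mul_zero]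
    have hw' : QuadraticMap.polar ⇑Q ((X : Matrix ι ι F) *ᵥ e) (c⁻¹ • ((X : Matrix ι ι F) *ᵥ w)) = 0 := by
      rw [QuadraticMap.polar_smul_right, polar_sim Q _ c hX, hw]
      simp
    refine ⟨E Q ((X : Matrix ι ι F) *ᵥ e) (c⁻¹ • ((X : Matrix ι ι F) *ᵥ w)), E_mem_TT Q he' hw', ?_⟩
    rw [eq_mul_inv_iff_mul_eq]
    apply Units.ext
    apply Matrix.mulVec_injective
    funext v
    rw [Units.val_mul, Units.val_mul, ← Matrix.mulVec_mulVec, ← Matrix.mulVec_mulVec,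
      E_apply Q he' hw', E_apply Q he hw, QuadraticMap.polar_smul_right, polar_sim Q _ c hX,
      polar_sim Q _ c hX, QuadraticMap.map_smul, hX, Matrix.mulVec_sub, Matrix.mulVec_add,
      Matrix.mulVec_smul, Matrix.mulVec_smul]
    simp only [smul_eq_mul]
    have e1 : c⁻¹ * (c * QuadraticMap.polar ⇑Q v w) = QuadraticMap.polar ⇑Q v w := by
      rw [← mul_assoc, inv_mul_cancel₀ hc, one_mul]
    have e2 : c⁻¹ * c⁻¹ * (c * Q w) * (c * QuadraticMap.polar ⇑Q v e)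
        = Q w * QuadraticMap.polar ⇑Q v e := by
      field_simp
    have e3 : (c * QuadraticMap.polar ⇑Q v e) • c⁻¹ • ((X : Matrix ι ι F) *ᵥ w)
        = QuadraticMap.polar ⇑Q v e • ((X : Matrix ι ι F) *ᵥ w) := by
      rw [smul_smul]
      congr 1
      field_simp
    rw [e1, e2, e3]
  | one => exact ⟨1, Subgroup.one_mem _, by simp⟩
  | mul x y _ _ hx hy =>
    obtain ⟨x', hx', ex⟩ := hx
    obtain ⟨y', hy', ey⟩ := hy
    refine ⟨x' * y', Subgroup.mul_mem _ hx' hy', ?_⟩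
    rw [Subgroup.coe_mul, ex, ey, Subgroup.coe_mul]
    group
  | inv x _ hx =>
    obtain ⟨x', hx', ex⟩ := hx
    refine ⟨x'⁻¹, Subgroup.inv_mem _ hx', ?_⟩
    rw [Subgroup.coe_inv, ex, Subgroup.coe_inv]
    group

end gen

variable {F : Type*} [Field F] [Fintype F] {n : ℕ}

local notation "SLn" => Matrix.SpecialLinearGroup (Fin n) F
local notation "Mn" => Matrix (Fin n) (Fin n) F
local notation "π" => (QuotientGroup.mk : Matrix.SpecialLinearGroup (Fin n) F →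
  Matrix.SpecialLinearGroup (Fin n) F ⧸ Subgroup.center (Matrix.SpecialLinearGroup (Fin n) F))
local notation "AutP" => MulAut (Matrix.ProjectiveSpecialLinearGroup (Fin n) F)

lemma qf_apply (M : Mn) (v : Fin n → F) : qf M v = v ⬝ᵥ (M *ᵥ v) := by
  unfold qf Matrix.toQuadraticForm'
  rw [LinearMap.BilinMap.toQuadraticMap_apply, Matrix.toLinearMap₂'_apply']

/-- piece O2 -/
theorem orth_H4 (h2 : (2 : F) ≠ 0) (g : GL (Fin n) F) (hg : (g : Mn)ᵀ = g)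
    (k : Matrix.ProjectiveSpecialLinearGroup (Fin n) F) (hk : (cHom g * iota : AutP) k = k)
    (s : SLn) (hs : s ∈ eichS (qf ((g⁻¹ : GL (Fin n) F) : Mn))) :
    ∃ t ∈ eichS (qf ((g⁻¹ : GL (Fin n) F) : Mn)), k * π s * k⁻¹ * (π s)⁻¹ = π t := by
  obtain ⟨x, rfl⟩ := QuotientGroup.mk_surjective k
  rw [MulAut.mul_apply, iota, cHom_apply, liftAut_mk, liftAut_mk] at hk
  have h1 := QuotientGroup.eq.1 hk
  obtain ⟨r, hr1, hr2⟩ := Matrix.SpecialLinearGroup.mem_center_iff.1 h1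
  have hx : (x : Mn) = r • ((g : Mn) * ((x⁻¹ : SLn) : Mn)ᵀ * ((g⁻¹ : GL (Fin n) F) : Mn)) := by
    have h3 : (conjGL g (invT x) : Mn) * (Matrix.scalar (Fin n) r) = (x : Mn) := by
      rw [hr2, ← Matrix.SpecialLinearGroup.coe_mul, mul_inv_cancel_left]
    rw [← h3, conjGL_coe, invT_coe, Matrix.scalar_apply, ← Matrix.smul_one_eq_diagonal,
      Matrix.mul_smul, Matrix.mul_one]
  have hgram : (x : Mn)ᵀ * ((g⁻¹ : GL (Fin n) F) : Mn) * (x : Mn) = r • ((g⁻¹ : GL (Fin n) F) : Mn) := by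
    have h4 : (x : Mn)ᵀ * ((x⁻¹ : SLn) : Mn)ᵀ = 1 := by
      rw [← Matrix.transpose_mul, ← Matrix.SpecialLinearGroup.coe_mul, inv_mul_cancel,
        Matrix.SpecialLinearGroup.coe_one, Matrix.transpose_one]
    have h5 := congrArg (fun Z : Mn => (x : Mn)ᵀ * ((g⁻¹ : GL (Fin n) F) : Mn) * Z) hx
    refine h5.trans ?_
    show (x : Mn)ᵀ * ((g⁻¹ : GL (Fin n) F) : Mn) *
      (r • ((g : Mn) * ((x⁻¹ : SLn) : Mn)ᵀ * ((g⁻¹ : GL (Fin n) F) : Mn))) = _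
    rw [Matrix.mul_smul]
    congr 1
    calc (x : Mn)ᵀ * ((g⁻¹ : GL (Fin n) F) : Mn) *
          ((g : Mn) * ((x⁻¹ : SLn) : Mn)ᵀ * ((g⁻¹ : GL (Fin n) F) : Mn))
        = (x : Mn)ᵀ * (((g⁻¹ : GL (Fin n) F) : Mn) * (g : Mn)) * ((x⁻¹ : SLn) : Mn)ᵀ *
          ((g⁻¹ : GL (Fin n) F) : Mn) := by simp only [Matrix.mul_assoc]
      _ = ((g⁻¹ : GL (Fin n) F) : Mn) := by rw [gl_inv_mul, Matrix.mul_one, h4, Matrix.one_mul]
  have hX : ∀ v, qf ((g⁻¹ : GL (Fin n) F) : Mn) ((x : Mn) *ᵥ v)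
      = r * qf ((g⁻¹ : GL (Fin n) F) : Mn) v := by
    intro v
    rw [qf_apply, qf_apply, Matrix.mulVec_mulVec, ← Matrix.vecMul_transpose,
      ← Matrix.dotProduct_mulVec, Matrix.mulVec_mulVec, ← Matrix.mul_assoc, hgram,
      Matrix.smul_mulVec, dotProduct_smul, smul_eq_mul]
  rcases Nat.eq_zero_or_pos n with rfl | hn
  · exact ⟨1, Subgroup.one_mem _, Subsingleton.elim _ _⟩
  have hr0 : r ≠ 0 := by
    rintro rfl
    rw [Fintype.card_fin, zero_pow hn.ne'] at hr1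
    exact zero_ne_one hr1
  obtain ⟨τ, hτ, hτs⟩ := mem_eichS.1 hs
  obtain ⟨τ', hτ', e'⟩ := conj_TT _ (Matrix.SpecialLinearGroup.toGL x) r hr0 hX τ hτ
  refine ⟨x * s * x⁻¹ * s⁻¹, mem_eichS.2 ⟨τ' * τ⁻¹, Subgroup.mul_mem _ hτ' (Subgroup.inv_mem _ hτ), ?_⟩,
    rfl⟩
  rw [Subgroup.coe_mul, Subgroup.coe_inv, e', hτs, map_mul, map_mul, map_mul, map_inv, map_inv]

/-- conjugation by a similitude normalises `eichS Q` -/
theorem eichS_conj_simil (Q : QuadraticForm F (Fin n → F)) (y : GL (Fin n) F) (c : F)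
    (hy : ∀ v, Q ((y : Mn) *ᵥ v) = c * Q v) (s : SLn) (hs : s ∈ eichS Q) : conjGL y s ∈ eichS Q := by
  obtain ⟨c', hc', hy'⟩ : ∃ c' : F, c' ≠ 0 ∧ ∀ v, Q ((y : Mn) *ᵥ v) = c' * Q v := by
    by_cases hc : c = 0
    · refine ⟨1, one_ne_zero, fun v => ?_⟩
      have h0 : ∀ v, Q v = 0 := by
        intro v
        have := hy (((y⁻¹ : GL (Fin n) F) : Mn) *ᵥ v)
        rw [Matrix.mulVec_mulVec, gl_mul_inv, Matrix.one_mulVec, hc, zero_mul] at this
        exact this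
      rw [h0, h0, mul_zero]
    · exact ⟨c, hc, hy⟩
  obtain ⟨τ, hτ, hτs⟩ := mem_eichS.1 hs
  obtain ⟨τ', hτ', e'⟩ := conj_TT Q y c' hc' hy' τ hτ
  refine mem_eichS.2 ⟨τ', hτ', ?_⟩
  rw [e', hτs]
  apply Units.ext
  rfl

end Cfsg.Agent.Lib.Helper95LBO2
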