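import Mathlib
import Cfsg.Prelude
import Cfsg.Agent.Lib.Helper42LBDefs
import Cfsg.Agent.Lib.Helper17Orth2

set_option autoImplicit false

/-! PROJECT 42, piece O3: a semilinear map commuting (projectively) with all Eichler
transformations is a scalar (helper97). -/

namespace Cfsg.Agent.Lib.Helper97LBO3

open Matrix Cfsg Cfsg.Agent.Lib.Helper50Aut Cfsg.Agent.Lib.Helper50AutStr
  Cfsg.Agent.Lib.Helper42BalA Cfsg.Agent.Lib.Helper49EichGen Cfsg.Agent.Lib.Helper42LBDefs
  Cfsg.Agent.Lib.Helper49Eich Cfsg.Agent.Lib.Helper49Geo Cfsg.Agent.Lib.Helper49Hyp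
  Cfsg.Agent.Lib.Helper49Orth

section Abstract

variable {F : Type*} [Field F]
variable {ι : Type} [Fintype ι] [DecidableEq ι] (Q : QuadraticForm F (ι → F))

local notation "𝐁" => QuadraticMap.polar (DFunLike.coe Q)

/-- a singular vector, a hyperbolic partner and a nonzero vector orthogonal to both -/
theorem exists_triple (hQ : (QuadraticMap.polarBilin Q).Nondegenerate)
    (hn : 3 ≤ Fintype.card ι) {e : ι → F} (he0 : e ≠ 0) (he : Q e = 0) :
    ∃ f z : ι → F, Q f = 0 ∧ 𝐁 e f = 1 ∧ 𝐁 e z = 0 ∧ 𝐁 f z = 0 ∧ z ≠ 0 := by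
  obtain ⟨f, hf, hef⟩ := exists_hyp_partner Q hQ he0 he
  have h1 := finrank_orth_add Q hQ (Submodule.span F {e, f})
  have h2 := finrank_span_pair_le e f
  have h3 : 0 < Module.finrank F
      (LinearMap.BilinForm.orthogonal (QuadraticMap.polarBilin Q) (Submodule.span F {e, f})) := by
    omega
  obtain ⟨z, hz0⟩ := Module.finrank_pos_iff_exists_ne_zero.1 h3
  have hz := (mem_orth_span_pair Q).1 z.2
  exact ⟨f, z, hf, hef, hz.1, hz.2, fun h => hz0 (Subtype.ext h)⟩

/-- an eigenvalue of an Eichler transformation is `1` -/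
theorem eigen_one {e w x : ι → F} (he : Q e = 0) (hw : 𝐁 e w = 0) (hx : x ≠ 0) (r : F)
    (h : x + (𝐁 x w - Q w * 𝐁 x e) • e - 𝐁 x e • w = r • x) : r = 1 := by
  have hee : 𝐁 e e = 0 := polar_self_of_singular Q he
  have hwe : 𝐁 w e = 0 := by rw [QuadraticMap.polar_comm]; exact hw
  by_contra hr
  have hr' : 1 - r ≠ 0 := fun h0 => hr (by linear_combination -h0)
  have h1 : 𝐁 x e = 0 := by
    have := congrArg (fun y => 𝐁 y e) h
    simp only [QuadraticMap.polar_sub_left, QuadraticMap.polar_add_left,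
      QuadraticMap.polar_smul_left, hee, hwe, smul_eq_mul, mul_zero, add_zero, sub_zero] at this
    have h0 : (1 - r) * 𝐁 x e = 0 := by linear_combination this
    exact (mul_eq_zero.1 h0).resolve_left hr'
  have h2 : 𝐁 x w = 0 := by
    have := congrArg (fun y => 𝐁 y w) h
    simp only [QuadraticMap.polar_sub_left, QuadraticMap.polar_add_left,
      QuadraticMap.polar_smul_left, hw, h1, smul_eq_mul, mul_zero, add_zero, sub_zero,
      zero_mul] at this
    have h0 : (1 - r) * 𝐁 x w = 0 := by linear_combination this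
    exact (mul_eq_zero.1 h0).resolve_left hr'
  rw [h1, h2] at h
  simp only [mul_zero, sub_zero, zero_smul, add_zero] at h
  have h0 : (1 - r) • x = 0 := by rw [sub_smul, one_smul, ← h, sub_self]
  exact (smul_eq_zero.1 h0).elim hr' hx

variable (τ : F → F) (T : (ι → F) → (ι → F))

/-- The semilinear core. -/
theorem semilinear_scalar [Finite F] (hQ : (QuadraticMap.polarBilin Q).Nondegenerate)
    (hn : 3 ≤ Fintype.card ι)
    (Tadd : ∀ x y, T (x + y) = T x + T y) (Tsmul : ∀ (a : F) x, T (a • x) = τ a • T x)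
    (Tinj : ∀ x, T x = 0 → x = 0)
    (hT : ∀ e w : ι → F, Q e = 0 → 𝐁 e w = 0 → ∀ v,
      T (v + (𝐁 v w - Q w * 𝐁 v e) • e - 𝐁 v e • w)
        = T v + (𝐁 (T v) w - Q w * 𝐁 (T v) e) • e - 𝐁 (T v) e • w) :
    ∃ c : F, (∀ a, τ a = a) ∧ ∀ v, T v = c • v := by
  have Tzero : T 0 = 0 := by
    have := Tadd 0 0
    rw [add_zero] at this
    exact left_eq_add.1 this
  have Tneg : ∀ x, T (-x) = - T x := by
    intro x
    have := Tadd x (-x)
    rw [add_neg_cancel, Tzero] at this
    exact (neg_eq_of_add_eq_zero_right this.symm).symm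
  have Tsub : ∀ x y, T (x - y) = T x - T y := by
    intro x y
    rw [sub_eq_add_neg, Tadd, Tneg, sub_eq_add_neg]
  -- singular vectors are eigenvectors
  have eig : ∀ e : ι → F, e ≠ 0 → Q e = 0 → ∃ c : F, T e = c • e := by
    intro e he0 he
    obtain ⟨f, z, hf, hef, hez, hfz, hz0⟩ := exists_triple Q hQ hn he0 he
    have hee : 𝐁 e e = 0 := polar_self_of_singular Q he
    have key : ∀ w, 𝐁 e w = 0 → (𝐁 (T e) w - Q w * 𝐁 (T e) e) • e = 𝐁 (T e) e • w := by
      intro w hw
      have := hT e w he hw e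
      rw [hw, hee] at this
      simp only [mul_zero, sub_zero, zero_smul, add_zero] at this
      have h0 : (𝐁 (T e) w - Q w * 𝐁 (T e) e) • e - 𝐁 (T e) e • w = 0 := by
        have h1 : T e + (𝐁 (T e) w - Q w * 𝐁 (T e) e) • e - 𝐁 (T e) e • w
            = T e + ((𝐁 (T e) w - Q w * 𝐁 (T e) e) • e - 𝐁 (T e) e • w) := by abel
        rw [h1] at this
        exact (left_eq_add.1 this)
      exact sub_eq_zero.1 h0
    have h1 : 𝐁 (T e) e = 0 := by
      have := congrArg (fun y => 𝐁 f y) (key z hez)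
      simp only [QuadraticMap.polar_smul_right, hfz, smul_eq_mul, mul_zero] at this
      rw [QuadraticMap.polar_comm ⇑Q f e, hef, mul_one] at this
      have h2 := key z hez
      rw [this, zero_smul] at h2
      exact (smul_eq_zero.1 h2.symm).resolve_right hz0
    have h2 : T e ∈ Submodule.span F {e} := by
      apply mem_span_of_orth Q hQ
      intro w hw
      have := key w hw
      rw [h1] at this
      simp only [mul_zero, sub_zero, zero_smul] at this
      exact (smul_eq_zero.1 this).resolve_right he0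
    obtain ⟨c, hc⟩ := Submodule.mem_span_singleton.1 h2
    exact ⟨c, hc.symm⟩
  -- a hyperbolic pair
  obtain ⟨e, -, he0, he⟩ := exists_singular_sub Q (P := ⊤) (by
    rw [finrank_top, Module.finrank_fintype_fun_eq_card]; exact hn)
  obtain ⟨f, z, hf, hef, hez, hfz, hz0⟩ := exists_triple Q hQ hn he0 he
  have hfe : 𝐁 f e = 1 := by rw [QuadraticMap.polar_comm]; exact hef
  have hf0 : f ≠ 0 := by
    rintro rfl
    simp at hef
  have hee : 𝐁 e e = 0 := polar_self_of_singular Q he
  have hff : 𝐁 f f = 0 := polar_self_of_singular Q hf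
  obtain ⟨c, hc⟩ := eig e he0 he
  obtain ⟨c', hc'⟩ := eig f hf0 hf
  -- general statement for a hyperbolic pair
  have gen : ∀ (e f : ι → F) (c c' : F), Q e = 0 → Q f = 0 → 𝐁 e f = 1 → T e = c • e →
      T f = c' • f → ∀ w, 𝐁 e w = 0 → 𝐁 f w = 0 →
        T w = c' • w + (Q w * c' - τ (Q w) * c) • e := by
    intro e f c c' he hf hef hc hc' w hew hfw
    have hfe : 𝐁 f e = 1 := by rw [QuadraticMap.polar_comm]; exact hef
    have := hT e w he hew f
    rw [hfw, hfe, Tsub, Tadd, Tsmul, Tsmul, hc, hc', QuadraticMap.polar_smul_left,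
      QuadraticMap.polar_smul_left, hfw, hfe] at this
    have t1 : τ 1 • T w = T w := by rw [← Tsmul, one_smul]
    rw [t1] at this
    have tn : τ (0 - Q w * 1) • c • e = - (τ (Q w) * c) • e := by
      have : (0 - Q w * 1) • e = - (Q w • e) := by simp
      rw [← hc, ← Tsmul, this, Tneg, Tsmul, hc, smul_smul, neg_smul]
    rw [tn] at this
    simp only [smul_eq_mul, mul_zero, mul_one, zero_sub] at this
    have e1 : T w = c' • f + -(τ (Q w) * c) • e - (c' • f + -(Q w * c') • e - c' • w) := by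
      rw [← this]; abel
    rw [e1, sub_smul, neg_smul, neg_smul]
    abel
  have g1 := gen e f c c' he hf hef hc hc'
  have g2 := gen f e c' c hf he hfe hc' hc
  have Tw1 : ∀ w, 𝐁 e w = 0 → 𝐁 f w = 0 → T w = c' • w := by
    intro w hew hfw
    have a1 := g1 w hew hfw
    have a2 := g2 w hfw hew
    have b1 := congrArg (fun y => 𝐁 f y) a1
    have b2 := congrArg (fun y => 𝐁 f y) a2
    simp only [QuadraticMap.polar_add_right, QuadraticMap.polar_smul_right, hfw, hfe, hff,
      smul_eq_mul, mul_zero, mul_one, zero_add, add_zero] at b1 b2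
    rw [b2] at b1
    rw [a1, ← b1, zero_smul, add_zero]
  have Tw2 : ∀ w, 𝐁 e w = 0 → 𝐁 f w = 0 → T w = c • w := by
    intro w hew hfw
    have a1 := g1 w hew hfw
    have a2 := g2 w hfw hew
    have b1 := congrArg (fun y => 𝐁 e y) a1
    have b2 := congrArg (fun y => 𝐁 e y) a2
    simp only [QuadraticMap.polar_add_right, QuadraticMap.polar_smul_right, hew, hef, hee,
      smul_eq_mul, mul_zero, mul_one, zero_add, add_zero] at b1 b2
    rw [b1] at b2
    rw [a2, ← b2, zero_smul, add_zero]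
  have hcc : c' = c := by
    have h1 := Tw1 z hez hfz
    rw [Tw2 z hez hfz] at h1
    have h2 : (c - c') • z = 0 := by rw [sub_smul, h1, sub_self]
    have := (smul_eq_zero.1 h2).resolve_right hz0
    linear_combination -this
  subst hcc
  have hc0 : c' ≠ 0 := by
    rintro rfl
    rw [zero_smul] at hc
    exact he0 (Tinj e hc)
  have hτ : ∀ a, τ a = a := by
    intro a
    have h1 := Tw1 (a • z) (by rw [QuadraticMap.polar_smul_right, hez, smul_zero])
      (by rw [QuadraticMap.polar_smul_right, hfz, smul_zero])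
    rw [Tsmul, Tw1 z hez hfz, smul_smul, smul_smul] at h1
    have h2 : (τ a * c' - c' * a) • z = 0 := by rw [sub_smul, h1, sub_self]
    have h3 := (smul_eq_zero.1 h2).resolve_right hz0
    have h4 : c' * (τ a - a) = 0 := by linear_combination h3
    have := (mul_eq_zero.1 h4).resolve_left hc0
    linear_combination this
  refine ⟨c', hτ, ?_⟩
  intro v
  have hv : v = 𝐁 f v • e + 𝐁 e v • f + (v - 𝐁 f v • e - 𝐁 e v • f) := by abel
  have hw1 : 𝐁 e (v - 𝐁 f v • e - 𝐁 e v • f) = 0 := by
    rw [QuadraticMap.polar_sub_right, QuadraticMap.polar_sub_right, QuadraticMap.polar_smul_right,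
      QuadraticMap.polar_smul_right, hee, hef]
    simp
  have hw2 : 𝐁 f (v - 𝐁 f v • e - 𝐁 e v • f) = 0 := by
    rw [QuadraticMap.polar_sub_right, QuadraticMap.polar_sub_right, QuadraticMap.polar_smul_right,
      QuadraticMap.polar_smul_right, hff, hfe]
    simp
  have := Tw1 _ hw1 hw2
  calc T v = T (𝐁 f v • e + 𝐁 e v • f + (v - 𝐁 f v • e - 𝐁 e v • f)) := by rw [← hv]
    _ = 𝐁 f v • c' • e + 𝐁 e v • c' • f + c' • (v - 𝐁 f v • e - 𝐁 e v • f) := by
        rw [Tadd, Tadd, Tsmul, Tsmul, hτ, hτ, hc, hc', this]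
    _ = c' • (𝐁 f v • e + 𝐁 e v • f + (v - 𝐁 f v • e - 𝐁 e v • f)) := by
        rw [smul_add, smul_add, smul_comm, smul_comm (𝐁 e v)]
    _ = c' • v := by rw [← hv]

end Abstract

section Concrete

variable {F : Type*} [Field F]

theorem det_E {ι : Type} [Fintype ι] [DecidableEq ι] (h2 : (2 : F) ≠ 0)
    (Q : QuadraticForm F (ι → F)) (hQ : (QuadraticMap.polarBilin Q).Nondegenerate)
    {e w : ι → F} (he : Q e = 0) (hw : QuadraticMap.polar ⇑Q e w = 0) :
    (((E Q e w : ↥(Cfsg.isometryGroup F ⇑Q)) : Matrix.GeneralLinearGroup ι F) :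
      Matrix ι ι F).det = 1 := by
  have hw' : QuadraticMap.polar ⇑Q e ((2 : F)⁻¹ • w) = 0 := by
    rw [QuadraticMap.polar_smul_right, hw, smul_zero]
  have h1 : E Q e w = E Q e ((2 : F)⁻¹ • w) * E Q e ((2 : F)⁻¹ • w) := by
    rw [E_mul Q he hw' hw', ← add_smul]
    have : (2 : F)⁻¹ + (2 : F)⁻¹ = 1 := by field_simp; norm_num
    rw [this, one_smul]
  rw [h1]
  simp only [Subgroup.coe_mul, Units.val_mul, Matrix.det_mul]
  exact Cfsg.Agent.Lib.Helper17Orth2.isometry_det_sq Q hQ _ (fun x => iso_apply (Q := ⇑Q) _ x)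

variable [Fintype F] {n : ℕ}

local notation "SLn" => Matrix.SpecialLinearGroup (Fin n) F
local notation "Mn" => Matrix (Fin n) (Fin n) F
local notation "π" => (QuotientGroup.mk : Matrix.SpecialLinearGroup (Fin n) F →
  Matrix.SpecialLinearGroup (Fin n) F ⧸ Subgroup.center (Matrix.SpecialLinearGroup (Fin n) F))
local notation "AutP" => MulAut (Matrix.ProjectiveSpecialLinearGroup (Fin n) F)

/-- piece O3 -/
theorem orth_core (hn : 3 ≤ n) (h2 : (2 : F) ≠ 0) (Q : QuadraticForm F (Fin n → F))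
    (hQ : (QuadraticMap.polarBilin Q).Nondegenerate) (h : GL (Fin n) F) (τ : F ≃+* F)
    (hc : ∀ s ∈ eichS Q, (cHom h * fHom τ : AutP) (π s) = π s) : (cHom h * fHom τ : AutP) = 1 := by
  set T : (Fin n → F) → (Fin n → F) := fun v => (h : Mn) *ᵥ (fun i => τ (v i)) with hTdef
  have Tadd : ∀ x y, T (x + y) = T x + T y := by
    intro x y
    simp only [hTdef]
    rw [← Matrix.mulVec_add]
    congr 1
    funext i
    simp
  have Tsmul : ∀ (a : F) x, T (a • x) = τ a • T x := by
    intro a x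
    simp only [hTdef]
    rw [← Matrix.mulVec_smul]
    congr 1
    funext i
    simp
  have Tinj : ∀ x, T x = 0 → x = 0 := by
    intro x hx
    have h1 : (fun i => τ (x i)) = 0 := by
      have := congrArg (fun y => ((h⁻¹ : GL (Fin n) F) : Mn) *ᵥ y) hx
      simp only [hTdef, Matrix.mulVec_mulVec, gl_inv_mul, Matrix.one_mulVec,
        Matrix.mulVec_zero] at this
      exact this
    funext i
    have := congrFun h1 i
    simpa using this
  have comm : ∀ e w : Fin n → F, Q e = 0 → QuadraticMap.polar ⇑Q e w = 0 → ∃ r : F, ∀ v,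
      (((E Q e w : ↥(Cfsg.isometryGroup F ⇑Q)) : GL (Fin n) F) : Mn) *ᵥ (T v)
        = r • T ((((E Q e w : ↥(Cfsg.isometryGroup F ⇑Q)) : GL (Fin n) F) : Mn) *ᵥ v) := by
    intro e w he hw
    let s : SLn := ⟨(((E Q e w : ↥(Cfsg.isometryGroup F ⇑Q)) : GL (Fin n) F) : Mn),
      det_E h2 Q hQ he hw⟩
    have hs : s ∈ eichS Q := mem_eichS.2 ⟨E Q e w, E_mem_TT Q he hw, Units.ext rfl⟩
    have h1 := hc s hs
    simp only [MulAut.mul_apply, fHom_apply, cHom_apply, liftAut_mk] at h1
    have h3 := QuotientGroup.eq.1 h1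
    rw [Matrix.SpecialLinearGroup.mem_center_iff] at h3
    obtain ⟨r, -, hrs⟩ := h3
    have h4 : (s : Mn) = (conjGL h (mapEquiv τ s) : Mn) * Matrix.scalar (Fin n) r := by
      rw [hrs, ← Matrix.SpecialLinearGroup.coe_mul, mul_inv_cancel_left]
    have h5 : (s : Mn) * (h : Mn) = r • ((h : Mn) * (s : Mn).map τ) := by
      have h6 : Matrix.scalar (Fin n) r * (h : Mn) = r • (h : Mn) := by
        rw [Matrix.scalar_apply, ← Matrix.smul_eq_diagonal_mul]
      conv_lhs => rw [h4]
      rw [conjGL_coe, mapEquiv_coe, mul_assoc, h6, Matrix.mul_smul, mul_assoc, gl_inv_mul,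
        mul_one]
    refine ⟨r, fun v => ?_⟩
    show (s : Mn) *ᵥ ((h : Mn) *ᵥ (fun i => τ (v i)))
      = r • ((h : Mn) *ᵥ (fun i => τ (((s : Mn) *ᵥ v) i)))
    rw [Matrix.mulVec_mulVec, h5, Matrix.smul_mulVec, ← Matrix.mulVec_mulVec]
    congr 2
    funext i
    exact (RingHom.map_mulVec (τ : F →+* F) (s : Mn) v i).symm
  have hT : ∀ e w : Fin n → F, Q e = 0 → QuadraticMap.polar ⇑Q e w = 0 → ∀ v,
      T (v + (QuadraticMap.polar ⇑Q v w - Q w * QuadraticMap.polar ⇑Q v e) • e
          - QuadraticMap.polar ⇑Q v e • w)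
        = T v + (QuadraticMap.polar ⇑Q (T v) w - Q w * QuadraticMap.polar ⇑Q (T v) e) • e
          - QuadraticMap.polar ⇑Q (T v) e • w := by
    intro e w he hw v
    by_cases he0 : e = 0
    · subst he0
      simp
    obtain ⟨r, hr⟩ := comm e w he hw
    have hr1 : r = 1 := by
      have h1 := hr e
      rw [E_apply Q he hw, E_apply Q he hw, hw, polar_self_of_singular Q he] at h1
      simp only [mul_zero, sub_zero, zero_smul, add_zero] at h1
      exact eigen_one Q he hw (fun h0 => he0 (Tinj e h0)) r h1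
    have h1 := hr v
    rw [hr1, one_smul, E_apply Q he hw, E_apply Q he hw] at h1
    exact h1.symm
  obtain ⟨c, hτ, hcv⟩ := semilinear_scalar Q τ T hQ (by rw [Fintype.card_fin]; exact hn)
    Tadd Tsmul Tinj hT
  have hτ1 : τ = 1 := RingEquiv.ext hτ
  have hh : (h : Mn) = Matrix.scalar (Fin n) c := by
    apply Matrix.mulVec_injective
    funext v
    have := hcv v
    simp only [hTdef, hτ] at this
    rw [this, Matrix.scalar_apply, ← Matrix.smul_one_eq_diagonal, Matrix.smul_mulVec,
      Matrix.one_mulVec]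
  rw [hτ1, map_one, mul_one]
  apply cHom_eq_one_of_mem_center
  exact Matrix.GeneralLinearGroup.mem_center_iff_val_mem_range_scalar.2 ⟨c, hh.symm⟩

end Concrete

end Cfsg.Agent.Lib.Helper97LBO3
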