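import Mathlib
import Cfsg.Prelude
import Cfsg.Agent.Lib.Helper42LBDefs
import Cfsg.Agent.Lib.Helper97LBO3

set_option autoImplicit false
set_option linter.unusedSectionVars false

/-! PROJECT 42, piece O3 (general form): a semilinear map over `F` commuting (projectively) with
all Eichler transformations of a form over a subfield `F₀` is a scalar, and the field automorphism
fixes `F₀` (helper97). -/

namespace Cfsg.Agent.Lib.Helper97LBO3Gen

open Matrix Cfsg Cfsg.Agent.Lib.Helper50Aut Cfsg.Agent.Lib.Helper50AutStr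
  Cfsg.Agent.Lib.Helper42BalA Cfsg.Agent.Lib.Helper49EichGen Cfsg.Agent.Lib.Helper42LBDefs
  Cfsg.Agent.Lib.Helper49Eich Cfsg.Agent.Lib.Helper49Geo Cfsg.Agent.Lib.Helper49Hyp
  Cfsg.Agent.Lib.Helper49Orth Cfsg.Agent.Lib.Helper97LBO3

section Abstract

variable {F : Type*} [Field F] {F₀ : Type*} [Field F₀] (j : F₀ →+* F)
variable {ι : Type} [Fintype ι] [DecidableEq ι] (Q : QuadraticForm F₀ (ι → F₀))

local notation "𝐁" => QuadraticMap.polar (DFunLike.coe Q)

/-- extension of vectors -/
def Jv (v : ι → F₀) : ι → F := fun i => j (v i)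

/-- the pairing between `F^n` and `F₀^n` extending the polar form -/
def bet (x : ι → F) (y : ι → F₀) : F := x ⬝ᵥ fun k => j (𝐁 (Pi.single k 1) y)

theorem Jv_add (x y : ι → F₀) : Jv j (x + y) = Jv j x + Jv j y := by
  funext i; simp [Jv]

theorem Jv_smul (a : F₀) (x : ι → F₀) : Jv j (a • x) = j a • Jv j x := by
  funext i; simp [Jv]

theorem Jv_sub (x y : ι → F₀) : Jv j (x - y) = Jv j x - Jv j y := by
  funext i; simp [Jv]

theorem Jv_inj {x : ι → F₀} (h : Jv j x = 0) : x = 0 := by
  funext i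
  have := congrFun h i
  simpa [Jv] using this

theorem bet_add_left (x x' : ι → F) (y : ι → F₀) : bet j Q (x + x') y = bet j Q x y + bet j Q x' y := by
  unfold bet; rw [add_dotProduct]

theorem bet_sub_left (x x' : ι → F) (y : ι → F₀) : bet j Q (x - x') y = bet j Q x y - bet j Q x' y := by
  unfold bet; rw [sub_dotProduct]

theorem bet_smul_left (a : F) (x : ι → F) (y : ι → F₀) : bet j Q (a • x) y = a * bet j Q x y := by
  unfold bet; rw [smul_dotProduct, smul_eq_mul]

theorem bet_add_right (x : ι → F) (y y' : ι → F₀) : bet j Q x (y + y') = bet j Q x y + bet j Q x y' := by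
  unfold bet
  rw [← dotProduct_add]
  congr 1
  funext k
  simp [QuadraticMap.polar_add_right]

theorem bet_smul_right (x : ι → F) (a : F₀) (y : ι → F₀) : bet j Q x (a • y) = j a * bet j Q x y := by
  unfold bet
  rw [← smul_eq_mul, ← dotProduct_smul]
  congr 1
  funext k
  simp [QuadraticMap.polar_smul_right]

theorem polar_eq_sum (x y : ι → F₀) : 𝐁 x y = ∑ k, x k * 𝐁 (Pi.single k 1) y := by
  have h := LinearMap.pi_apply_eq_sum_univ ((QuadraticMap.polarBilin Q).flip y) x
  simp only [LinearMap.flip_apply, QuadraticMap.polarBilin_apply_apply, smul_eq_mul] at h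
  rw [h]
  apply Finset.sum_congr rfl
  intro k _
  congr 2
  funext i
  simp [Pi.single_apply, eq_comm]

theorem bet_Jv (x y : ι → F₀) : bet j Q (Jv j x) y = j (𝐁 x y) := by
  unfold bet Jv dotProduct
  rw [polar_eq_sum, map_sum]
  simp

theorem bet_nondeg (hQ : (QuadraticMap.polarBilin Q).Nondegenerate) {x : ι → F}
    (h : ∀ y, bet j Q x y = 0) : x = 0 := by
  have hM : (LinearMap.BilinForm.toMatrix' (QuadraticMap.polarBilin Q)).det ≠ 0 :=
    (LinearMap.BilinForm.nondegenerate_toMatrix'_iff.2 hQ).det_ne_zero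
  have hM' : ((LinearMap.BilinForm.toMatrix' (QuadraticMap.polarBilin Q)).map j).det ≠ 0 := by
    have := RingHom.map_det j (LinearMap.BilinForm.toMatrix' (QuadraticMap.polarBilin Q))
    rw [RingHom.mapMatrix_apply] at this
    rw [← this]
    exact (map_ne_zero j).2 hM
  apply Matrix.eq_zero_of_vecMul_eq_zero hM'
  funext l
  have := h (Pi.single l 1)
  unfold bet at this
  simpa [Matrix.vecMul, LinearMap.BilinForm.toMatrix'_apply] using this

/-- the matrix of an Eichler transformation, extended to `F` -/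
theorem map_E_mulVec {e w : ι → F₀} (he : Q e = 0) (hw : 𝐁 e w = 0) (v : ι → F) :
    ((((E Q e w : ↥(Cfsg.isometryGroup F₀ ⇑Q)) : Matrix.GeneralLinearGroup ι F₀) :
      Matrix ι ι F₀).map j) *ᵥ v
      = v + (bet j Q v w - j (Q w) * bet j Q v e) • Jv j e - bet j Q v e • Jv j w := by
  have hS : ∀ i k, (((E Q e w : ↥(Cfsg.isometryGroup F₀ ⇑Q)) : Matrix.GeneralLinearGroup ι F₀) :
      Matrix ι ι F₀) i k = (Pi.single k (1 : F₀) : ι → F₀) i
        + (𝐁 (Pi.single k 1) w - Q w * 𝐁 (Pi.single k 1) e) * e i - 𝐁 (Pi.single k 1) e * w i := by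
    intro i k
    have := congrFun (E_apply Q he hw (Pi.single k 1)) i
    rw [Matrix.mulVec_single_one] at this
    simpa using this
  funext i
  simp only [Matrix.mulVec, dotProduct, Matrix.map_apply, hS, map_add, map_sub, map_mul,
    Pi.add_apply, Pi.sub_apply, Pi.smul_apply, smul_eq_mul, bet, Jv]
  have h1 : ∀ k, (j ((Pi.single k (1 : F₀) : ι → F₀) i) +
        (j (𝐁 (Pi.single k 1) w) - j (Q w) * j (𝐁 (Pi.single k 1) e)) * j (e i) -
          j (𝐁 (Pi.single k 1) e) * j (w i)) * v k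
      = (if k = i then v k else 0) + (v k * j (𝐁 (Pi.single k 1) w)) * j (e i)
        - j (Q w) * (v k * j (𝐁 (Pi.single k 1) e)) * j (e i)
        - (v k * j (𝐁 (Pi.single k 1) e)) * j (w i) := by
    intro k
    by_cases hk : k = i
    · subst hk
      simp
      ring
    · have : (Pi.single k (1 : F₀) : ι → F₀) i = 0 := Pi.single_eq_of_ne (Ne.symm hk) _
      rw [this, if_neg hk, map_zero]
      ring
  simp only [h1, Finset.sum_sub_distrib, Finset.sum_add_distrib, ← Finset.sum_mul,
    ← Finset.mul_sum, Finset.sum_ite_eq', Finset.mem_univ, if_true]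
  ring

/-- an eigenvalue of an (extended) Eichler transformation is `1` -/
theorem eigen_one_gen {e w : ι → F₀} (he : Q e = 0) (hw : 𝐁 e w = 0) {x : ι → F} (hx : x ≠ 0)
    (z : F)
    (h : x = z • (x + (bet j Q x w - j (Q w) * bet j Q x e) • Jv j e - bet j Q x e • Jv j w)) :
    z = 1 := by
  have hee : 𝐁 e e = 0 := polar_self_of_singular Q he
  have hwe : 𝐁 w e = 0 := by rw [QuadraticMap.polar_comm]; exact hw
  by_contra hr
  have hr' : 1 - z ≠ 0 := fun h0 => hr (by linear_combination -h0)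
  have h1 : bet j Q x e = 0 := by
    have := congrArg (fun y => bet j Q y e) h
    simp only [bet_smul_left, bet_sub_left, bet_add_left, bet_Jv, hee, hwe, map_zero, mul_zero,
      add_zero, sub_zero] at this
    have h0 : (1 - z) * bet j Q x e = 0 := by linear_combination this
    exact (mul_eq_zero.1 h0).resolve_left hr'
  have h2 : bet j Q x w = 0 := by
    have := congrArg (fun y => bet j Q y w) h
    simp only [bet_smul_left, bet_sub_left, bet_add_left, bet_Jv, hw, h1, map_zero, mul_zero,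
      add_zero, sub_zero, zero_mul] at this
    have h0 : (1 - z) * bet j Q x w = 0 := by linear_combination this
    exact (mul_eq_zero.1 h0).resolve_left hr'
  rw [h1, h2] at h
  simp only [mul_zero, sub_zero, zero_smul, add_zero] at h
  have h0 : (1 - z) • x = 0 := by rw [sub_smul, one_smul, ← h, sub_self]
  exact (smul_eq_zero.1 h0).elim hr' hx

variable (τ : F → F) (T : (ι → F) → (ι → F))

/-- The semilinear core, general form. -/
theorem semilinear_scalar_gen [Finite F₀] (hQ : (QuadraticMap.polarBilin Q).Nondegenerate)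
    (hn : 3 ≤ Fintype.card ι)
    (Tadd : ∀ x y, T (x + y) = T x + T y) (Tsmul : ∀ (a : F) x, T (a • x) = τ a • T x)
    (Tinj : ∀ x, T x = 0 → x = 0)
    (hT : ∀ e w : ι → F₀, Q e = 0 → 𝐁 e w = 0 → ∀ v,
      T (v + (bet j Q v w - j (Q w) * bet j Q v e) • Jv j e - bet j Q v e • Jv j w)
        = T v + (bet j Q (T v) w - j (Q w) * bet j Q (T v) e) • Jv j e
          - bet j Q (T v) e • Jv j w) :
    ∃ c : F, (∀ a, τ (j a) = j a) ∧ ∀ v, T (Jv j v) = c • Jv j v := by
  have Tzero : T 0 = 0 := by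
    have := Tadd 0 0
    rw [add_zero] at this
    exact left_eq_add.1 this
  have Tneg : ∀ x, T (-x) = - T x := by
    intro x
    have := Tadd x (-x)
    rw [add_neg_cancel, Tzero] at this
    exact (neg_eq_of_add_eq_zero_right this.symm).symm
  have Tsub : ∀ x y, T (x - y) = T x - T y := by
    intro x y
    rw [sub_eq_add_neg, Tadd, Tneg, sub_eq_add_neg]
  -- singular vectors are eigenvectors
  have eig : ∀ e : ι → F₀, e ≠ 0 → Q e = 0 → ∃ c : F, T (Jv j e) = c • Jv j e := by
    intro e he0 he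
    obtain ⟨f, z, hf, hef, hez, hfz, hz0⟩ := exists_triple Q hQ hn he0 he
    have hee : 𝐁 e e = 0 := polar_self_of_singular Q he
    have hJe0 : Jv j e ≠ 0 := fun h => he0 (Jv_inj j h)
    have hJz0 : Jv j z ≠ 0 := fun h => hz0 (Jv_inj j h)
    have key : ∀ w, 𝐁 e w = 0 →
        (bet j Q (T (Jv j e)) w - j (Q w) * bet j Q (T (Jv j e)) e) • Jv j e
          = bet j Q (T (Jv j e)) e • Jv j w := by
      intro w hw
      have := hT e w he hw (Jv j e)
      rw [bet_Jv, bet_Jv, hw, hee] at this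
      simp only [map_zero, mul_zero, sub_zero, zero_smul, add_zero] at this
      have h0 : (bet j Q (T (Jv j e)) w - j (Q w) * bet j Q (T (Jv j e)) e) • Jv j e
          - bet j Q (T (Jv j e)) e • Jv j w = 0 := by
        have h1 : T (Jv j e) + (bet j Q (T (Jv j e)) w - j (Q w) * bet j Q (T (Jv j e)) e) • Jv j e
              - bet j Q (T (Jv j e)) e • Jv j w
            = T (Jv j e) + ((bet j Q (T (Jv j e)) w - j (Q w) * bet j Q (T (Jv j e)) e) • Jv j e
              - bet j Q (T (Jv j e)) e • Jv j w) := by abel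
        rw [h1] at this
        exact (left_eq_add.1 this)
      exact sub_eq_zero.1 h0
    have h1 : bet j Q (T (Jv j e)) e = 0 := by
      have := congrArg (fun y => bet j Q y f) (key z hez)
      simp only [bet_smul_left, bet_Jv, hef, QuadraticMap.polar_comm ⇑Q z f, hfz, map_zero,
        map_one, mul_zero, mul_one] at this
      have h2 := key z hez
      rw [this, zero_smul] at h2
      exact (smul_eq_zero.1 h2.symm).resolve_right hJz0
    have h2 : ∀ w, 𝐁 e w = 0 → bet j Q (T (Jv j e)) w = 0 := by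
      intro w hw
      have := key w hw
      rw [h1] at this
      simp only [mul_zero, sub_zero, zero_smul] at this
      exact (smul_eq_zero.1 this).resolve_right hJe0
    refine ⟨bet j Q (T (Jv j e)) f, ?_⟩
    rw [← sub_eq_zero]
    apply bet_nondeg j Q hQ
    intro y
    have hy : y = 𝐁 e y • f + (y - 𝐁 e y • f) := by abel
    have hy' : 𝐁 e (y - 𝐁 e y • f) = 0 := by
      rw [QuadraticMap.polar_sub_right, QuadraticMap.polar_smul_right, hef]
      simp
    rw [hy, bet_add_right, bet_smul_right, bet_sub_left, bet_sub_left, bet_smul_left,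
      bet_smul_left, bet_Jv, bet_Jv, hef, hy', h2 _ hy']
    simp
  -- a hyperbolic pair
  obtain ⟨e, -, he0, he⟩ := exists_singular_sub Q (P := ⊤) (by
    rw [finrank_top, Module.finrank_fintype_fun_eq_card]; exact hn)
  obtain ⟨f, z, hf, hef, hez, hfz, hz0⟩ := exists_triple Q hQ hn he0 he
  have hfe : 𝐁 f e = 1 := by rw [QuadraticMap.polar_comm]; exact hef
  have hf0 : f ≠ 0 := by
    rintro rfl
    simp at hef
  have hee : 𝐁 e e = 0 := polar_self_of_singular Q he
  have hff : 𝐁 f f = 0 := polar_self_of_singular Q hf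
  have hJe0 : Jv j e ≠ 0 := fun h => he0 (Jv_inj j h)
  have hJz0 : Jv j z ≠ 0 := fun h => hz0 (Jv_inj j h)
  obtain ⟨c, hc⟩ := eig e he0 he
  obtain ⟨c', hc'⟩ := eig f hf0 hf
  -- general statement for a hyperbolic pair
  have gen : ∀ (e f : ι → F₀) (c c' : F), Q e = 0 → Q f = 0 → 𝐁 e f = 1 →
      T (Jv j e) = c • Jv j e → T (Jv j f) = c' • Jv j f → ∀ w, 𝐁 e w = 0 → 𝐁 f w = 0 →
        T (Jv j w) = c' • Jv j w + (j (Q w) * c' - τ (j (Q w)) * c) • Jv j e := by
    intro e f c c' he hf hef hc hc' w hew hfw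
    have hfe : 𝐁 f e = 1 := by rw [QuadraticMap.polar_comm]; exact hef
    have := hT e w he hew (Jv j f)
    rw [bet_Jv, bet_Jv, hfw, hfe, Tsub, Tadd, Tsmul, Tsmul, hc, hc', bet_smul_left,
      bet_smul_left, bet_Jv, bet_Jv, hfw, hfe, map_zero, map_one] at this
    have t1 : τ 1 • T (Jv j w) = T (Jv j w) := by rw [← Tsmul, one_smul]
    rw [t1] at this
    have tn : τ (0 - j (Q w) * 1) • c • Jv j e = - (τ (j (Q w)) * c) • Jv j e := by
      have : (0 - j (Q w) * 1) • Jv j e = - (j (Q w) • Jv j e) := by simp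
      rw [← hc, ← Tsmul, this, Tneg, Tsmul, hc, smul_smul, neg_smul]
    rw [tn] at this
    simp only [mul_zero, mul_one, zero_sub] at this
    have e1 : T (Jv j w) = c' • Jv j f + -(τ (j (Q w)) * c) • Jv j e
        - (c' • Jv j f + -(j (Q w) * c') • Jv j e - c' • Jv j w) := by
      rw [← this]; abel
    rw [e1, sub_smul, neg_smul, neg_smul]
    abel
  have g1 := gen e f c c' he hf hef hc hc'
  have g2 := gen f e c' c hf he hfe hc' hc
  have Tw1 : ∀ w, 𝐁 e w = 0 → 𝐁 f w = 0 → T (Jv j w) = c' • Jv j w := by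
    intro w hew hfw
    have hwf : 𝐁 w f = 0 := by rw [QuadraticMap.polar_comm]; exact hfw
    have a1 := g1 w hew hfw
    have a2 := g2 w hfw hew
    have b1 := congrArg (fun y => bet j Q y f) a1
    have b2 := congrArg (fun y => bet j Q y f) a2
    simp only [bet_add_left, bet_smul_left, bet_Jv, hwf, hef, hff, map_zero, map_one,
      mul_zero, mul_one, zero_add, add_zero] at b1 b2
    rw [b2] at b1
    rw [a1, ← b1, zero_smul, add_zero]
  have Tw2 : ∀ w, 𝐁 e w = 0 → 𝐁 f w = 0 → T (Jv j w) = c • Jv j w := by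
    intro w hew hfw
    have hwe : 𝐁 w e = 0 := by rw [QuadraticMap.polar_comm]; exact hew
    have a1 := g1 w hew hfw
    have a2 := g2 w hfw hew
    have b1 := congrArg (fun y => bet j Q y e) a1
    have b2 := congrArg (fun y => bet j Q y e) a2
    simp only [bet_add_left, bet_smul_left, bet_Jv, hwe, hfe, hee, map_zero, map_one,
      mul_zero, mul_one, zero_add, add_zero] at b1 b2
    rw [b1] at b2
    rw [a2, ← b2, zero_smul, add_zero]
  have hcc : c' = c := by
    have h1 := Tw1 z hez hfz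
    rw [Tw2 z hez hfz] at h1
    have h2 : (c - c') • Jv j z = 0 := by rw [sub_smul, h1, sub_self]
    have := (smul_eq_zero.1 h2).resolve_right hJz0
    linear_combination -this
  subst hcc
  have hc0 : c' ≠ 0 := by
    rintro rfl
    rw [zero_smul] at hc
    exact hJe0 (Tinj _ hc)
  have hτ : ∀ a, τ (j a) = j a := by
    intro a
    have h1 := Tw1 (a • z) (by rw [QuadraticMap.polar_smul_right, hez, smul_zero])
      (by rw [QuadraticMap.polar_smul_right, hfz, smul_zero])
    rw [Jv_smul, Tsmul, Tw1 z hez hfz, smul_smul, smul_smul] at h1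
    have h2 : (τ (j a) * c' - c' * j a) • Jv j z = 0 := by rw [sub_smul, h1, sub_self]
    have h3 := (smul_eq_zero.1 h2).resolve_right hJz0
    have h4 : c' * (τ (j a) - j a) = 0 := by linear_combination h3
    have := (mul_eq_zero.1 h4).resolve_left hc0
    linear_combination this
  refine ⟨c', hτ, ?_⟩
  intro v
  have hv : v = 𝐁 f v • e + 𝐁 e v • f + (v - 𝐁 f v • e - 𝐁 e v • f) := by abel
  have hw1 : 𝐁 e (v - 𝐁 f v • e - 𝐁 e v • f) = 0 := by
    rw [QuadraticMap.polar_sub_right, QuadraticMap.polar_sub_right, QuadraticMap.polar_smul_right,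
      QuadraticMap.polar_smul_right, hee, hef]
    simp
  have hw2 : 𝐁 f (v - 𝐁 f v • e - 𝐁 e v • f) = 0 := by
    rw [QuadraticMap.polar_sub_right, QuadraticMap.polar_sub_right, QuadraticMap.polar_smul_right,
      QuadraticMap.polar_smul_right, hff, hfe]
    simp
  have := Tw1 _ hw1 hw2
  calc T (Jv j v) = T (Jv j (𝐁 f v • e + 𝐁 e v • f + (v - 𝐁 f v • e - 𝐁 e v • f))) := by rw [← hv]
    _ = j (𝐁 f v) • c' • Jv j e + j (𝐁 e v) • c' • Jv j f
          + c' • Jv j (v - 𝐁 f v • e - 𝐁 e v • f) := by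
        rw [Jv_add, Jv_add, Jv_smul, Jv_smul, Tadd, Tadd, Tsmul, Tsmul, hτ, hτ, hc, hc', this]
    _ = c' • Jv j (𝐁 f v • e + 𝐁 e v • f + (v - 𝐁 f v • e - 𝐁 e v • f)) := by
        rw [Jv_add, Jv_add, Jv_smul, Jv_smul, smul_add, smul_add, smul_comm,
          smul_comm (j (𝐁 e v))]
    _ = c' • Jv j v := by rw [← hv]

end Abstract

section Concrete

variable {F : Type*} [Field F] [Fintype F] {n : ℕ}

local notation "SLn" => Matrix.SpecialLinearGroup (Fin n) F
local notation "Mn" => Matrix (Fin n) (Fin n) F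

/-- piece O3 (general form) -/
theorem orth_core_gen {F₀ : Type*} [Field F₀] [Fintype F₀] (j : F₀ →+* F) (hn : 3 ≤ n)
    (h2 : (2 : F₀) ≠ 0) (Q₀ : QuadraticForm F₀ (Fin n → F₀))
    (hQ₀ : (QuadraticMap.polarBilin Q₀).Nondegenerate) (h : GL (Fin n) F) (τ : F ≃+* F)
    (hc : ∀ s ∈ eichS Q₀, ∃ z : F,
      (h : Mn) * ((s : Matrix (Fin n) (Fin n) F₀).map j).map τ
        = z • ((s : Matrix (Fin n) (Fin n) F₀).map j * (h : Mn))) :
    (∃ c : F, (h : Mn) = c • (1 : Mn)) ∧ ∀ a : F₀, τ (j a) = j a := by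
  set T : (Fin n → F) → (Fin n → F) := fun v => (h : Mn) *ᵥ (fun i => τ (v i)) with hTdef
  have Tadd : ∀ x y, T (x + y) = T x + T y := by
    intro x y
    simp only [hTdef]
    rw [← Matrix.mulVec_add]
    congr 1
    funext i
    simp
  have Tsmul : ∀ (a : F) x, T (a • x) = τ a • T x := by
    intro a x
    simp only [hTdef]
    rw [← Matrix.mulVec_smul]
    congr 1
    funext i
    simp
  have Tinj : ∀ x, T x = 0 → x = 0 := by
    intro x hx
    have h1 : (fun i => τ (x i)) = 0 := by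
      have := congrArg (fun y => ((h⁻¹ : GL (Fin n) F) : Mn) *ᵥ y) hx
      simp only [hTdef, Matrix.mulVec_mulVec, gl_inv_mul, Matrix.one_mulVec,
        Matrix.mulVec_zero] at this
      exact this
    funext i
    have := congrFun h1 i
    simpa using this
  have comm : ∀ e w : Fin n → F₀, Q₀ e = 0 → QuadraticMap.polar ⇑Q₀ e w = 0 → ∃ z : F, ∀ v,
      T (((((E Q₀ e w : ↥(Cfsg.isometryGroup F₀ ⇑Q₀)) : GL (Fin n) F₀) :
          Matrix (Fin n) (Fin n) F₀).map j) *ᵥ v)
        = z • (((((E Q₀ e w : ↥(Cfsg.isometryGroup F₀ ⇑Q₀)) : GL (Fin n) F₀) :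
          Matrix (Fin n) (Fin n) F₀).map j) *ᵥ (T v)) := by
    intro e w he hw
    let s : Matrix.SpecialLinearGroup (Fin n) F₀ :=
      ⟨(((E Q₀ e w : ↥(Cfsg.isometryGroup F₀ ⇑Q₀)) : GL (Fin n) F₀) : Matrix (Fin n) (Fin n) F₀),
        det_E h2 Q₀ hQ₀ he hw⟩
    have hs : s ∈ eichS Q₀ := mem_eichS.2 ⟨E Q₀ e w, E_mem_TT Q₀ he hw, Units.ext rfl⟩
    obtain ⟨z, hz⟩ := hc s hs
    refine ⟨z, fun v => ?_⟩
    show (h : Mn) *ᵥ (fun i => τ ((((s : Matrix (Fin n) (Fin n) F₀).map j) *ᵥ v) i))
      = z • (((s : Matrix (Fin n) (Fin n) F₀).map j) *ᵥ ((h : Mn) *ᵥ (fun i => τ (v i))))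
    rw [Matrix.mulVec_mulVec, ← Matrix.smul_mulVec, ← hz, ← Matrix.mulVec_mulVec]
    congr 1
    funext i
    exact RingHom.map_mulVec (τ : F →+* F) ((s : Matrix (Fin n) (Fin n) F₀).map j) v i
  have hT : ∀ e w : Fin n → F₀, Q₀ e = 0 → QuadraticMap.polar ⇑Q₀ e w = 0 → ∀ v,
      T (v + (bet j Q₀ v w - j (Q₀ w) * bet j Q₀ v e) • Jv j e - bet j Q₀ v e • Jv j w)
        = T v + (bet j Q₀ (T v) w - j (Q₀ w) * bet j Q₀ (T v) e) • Jv j e
          - bet j Q₀ (T v) e • Jv j w := by
    intro e w he hw v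
    by_cases he0 : e = 0
    · subst he0
      have h0 : Jv j (0 : Fin n → F₀) = 0 := by funext i; simp [Jv]
      have h1 : ∀ x, bet j Q₀ x (0 : Fin n → F₀) = 0 := by
        intro x
        have := bet_smul_right j Q₀ x 0 0
        simpa using this
      simp [h0, h1]
    obtain ⟨z, hz⟩ := comm e w he hw
    have hz1 : z = 1 := by
      have h1 := hz (Jv j e)
      rw [map_E_mulVec j Q₀ he hw, map_E_mulVec j Q₀ he hw, bet_Jv, bet_Jv, hw,
        polar_self_of_singular Q₀ he] at h1
      simp only [map_zero, mul_zero, sub_zero, zero_smul, add_zero] at h1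
      exact eigen_one_gen j Q₀ he hw (fun h0 => he0 (Jv_inj j (Tinj _ h0))) z h1
    have h1 := hz v
    rw [hz1, one_smul, map_E_mulVec j Q₀ he hw, map_E_mulVec j Q₀ he hw] at h1
    exact h1
  obtain ⟨c, hτ, hcv⟩ := semilinear_scalar_gen j Q₀ τ T hQ₀ (by rw [Fintype.card_fin]; exact hn)
    Tadd Tsmul Tinj hT
  refine ⟨⟨c, ?_⟩, hτ⟩
  ext i k
  have := congrFun (hcv (Pi.single k 1)) i
  have e1 : (fun i => τ (Jv j (Pi.single k (1 : F₀)) i)) = (Pi.single k (1 : F) : Fin n → F) := by
    funext l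
    by_cases hl : l = k
    · subst hl; simp [Jv]
    · simp [Jv, Pi.single_eq_of_ne hl]
  simp only [hTdef, e1, Matrix.mulVec_single_one] at this
  rw [Matrix.col_apply] at this
  rw [this]
  by_cases hik : i = k
  · subst hik; simp [Jv]
  · simp [Jv, Pi.single_eq_of_ne hik, Matrix.one_apply_ne hik]

end Concrete

end Cfsg.Agent.Lib.Helper97LBO3Gen
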