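import Mathlib
import Cfsg.Prelude
import Cfsg.Agent.Lib.Helper42LBDefs
import Cfsg.Agent.Lib.Helper70LBF1
import Cfsg.Agent.Lib.Helper76LBF2
import Cfsg.Agent.Lib.Helper72LBF3
import Cfsg.Agent.Lib.Helper70LBF4
import Cfsg.Agent.Lib.Helper73LBF5
import Cfsg.Agent.Lib.Helper60LBO1
import Cfsg.Agent.Lib.Helper95LBO2
import Cfsg.Agent.Lib.Helper97LBO3
import Cfsg.Agent.Lib.Helper97LBO3Gen
import Cfsg.Agent.Lib.Helper97LBO4
import Cfsg.Agent.Lib.Helper40LBO5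
import Cfsg.Agent.Lib.Helper54LBO6
import Cfsg.Agent.Lib.Helper40LBO7
import Cfsg.Agent.Lib.Helper60LBO8
import Cfsg.Agent.Lib.Helper76LBS1
import Cfsg.Agent.Lib.Helper73LBS2
import Cfsg.Agent.Lib.Helper6LBU1
import Cfsg.Agent.Lib.Helper6LBU2
import Cfsg.Agent.Lib.Helper67LBU3
import Cfsg.Agent.Lib.Helper50Out
import Cfsg.Agent.Lib.Helper50GF
import Cfsg.Agent.Lib.Helper50Std

set_option autoImplicit false

namespace Cfsg.Agent.Lib.Helper42LBMain

open Matrix Cfsg Cfsg.Agent.Lib.Helper50Aut Cfsg.Agent.Lib.Helper50AutStr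
  Cfsg.Agent.Lib.Helper42BalA Cfsg.Agent.Lib.Helper49EichGen Cfsg.Agent.Lib.Helper42LBDefs
  Cfsg.Agent.Lib.Helper70LBF1 Cfsg.Agent.Lib.Helper76LBF2 Cfsg.Agent.Lib.Helper72LBF3
  Cfsg.Agent.Lib.Helper70LBF4 Cfsg.Agent.Lib.Helper73LBF5 Cfsg.Agent.Lib.Helper60LBO1
  Cfsg.Agent.Lib.Helper95LBO2 Cfsg.Agent.Lib.Helper97LBO3 Cfsg.Agent.Lib.Helper97LBO3Gen
  Cfsg.Agent.Lib.Helper97LBO4 Cfsg.Agent.Lib.Helper40LBO5 Cfsg.Agent.Lib.Helper54LBO6
  Cfsg.Agent.Lib.Helper40LBO7 Cfsg.Agent.Lib.Helper60LBO8 Cfsg.Agent.Lib.Helper76LBS1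
  Cfsg.Agent.Lib.Helper73LBS2 Cfsg.Agent.Lib.Helper6LBU1 Cfsg.Agent.Lib.Helper6LBU2
  Cfsg.Agent.Lib.Helper67LBU3 Cfsg.Agent.Lib.Helper50Out Cfsg.Agent.Lib.Helper50Twist
  Cfsg.Agent.Lib.Helper50GF

variable {F : Type*} [Field F] {n : ℕ}

local notation "SLn" => Matrix.SpecialLinearGroup (Fin n) F
local notation "Mn" => Matrix (Fin n) (Fin n) F
local notation "tr" => Matrix.SpecialLinearGroup.transvection
local notation "π" => (QuotientGroup.mk : Matrix.SpecialLinearGroup (Fin n) F →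
  Matrix.SpecialLinearGroup (Fin n) F ⧸ Subgroup.center (Matrix.SpecialLinearGroup (Fin n) F))
local notation "AutP" => MulAut (Matrix.ProjectiveSpecialLinearGroup (Fin n) F)

theorem H1 (hn : 2 ≤ n) :
    Function.Injective (MulAut.conj : Matrix.ProjectiveSpecialLinearGroup (Fin n) F →* AutP) := by
  rw [injective_iff_map_eq_one]
  intro k hk
  induction k using QuotientGroup.induction_on with
  | H s =>
    have h1 : (cHom (Matrix.SpecialLinearGroup.toGL s) : AutP) = 1 := by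
      rw [cHom_toGL]; exact hk
    have h2 : Matrix.SpecialLinearGroup.toGL s ∈ (cHom : GL (Fin n) F →* AutP).ker := h1
    rw [ker_cHom hn, Matrix.GeneralLinearGroup.mem_center_iff_val_mem_range_scalar] at h2
    obtain ⟨z, hz⟩ := h2
    rw [QuotientGroup.eq_one_iff, Matrix.SpecialLinearGroup.mem_center_iff]
    refine ⟨z, ?_, hz⟩
    have h3 := s.2
    have h4 : (s : Mn) = Matrix.scalar (Fin n) z := hz.symm
    rw [h4, Matrix.scalar_apply, Matrix.det_diagonal] at h3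
    simpa using h3

/-- `π x = π y` means `x = z y` for a scalar `z` -/
theorem exists_scalar_of_mk_eq {x y : SLn} (h : π x = π y) :
    ∃ z : F, z ≠ 0 ∧ (x : Mn) = z • (y : Mn) := by
  by_cases hn : n = 0
  · subst hn
    exact ⟨1, one_ne_zero, by ext a; exact a.elim0⟩
  have h1 : y⁻¹ * x ∈ Subgroup.center SLn := QuotientGroup.eq.1 h.symm
  rw [Matrix.SpecialLinearGroup.mem_center_iff] at h1
  obtain ⟨z, hz, e⟩ := h1
  have hy : (y : Mn) * ((y⁻¹ : SLn) : Mn) = 1 := by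
    rw [← Matrix.SpecialLinearGroup.coe_mul, mul_inv_cancel, Matrix.SpecialLinearGroup.coe_one]
  have e2 : (x : Mn) = (y : Mn) * Matrix.scalar (Fin n) z := by
    rw [e, Matrix.SpecialLinearGroup.coe_mul, ← mul_assoc, hy, one_mul]
  refine ⟨z, ?_, ?_⟩
  · rintro rfl
    rw [zero_pow (by simpa using hn)] at hz
    exact zero_ne_one hz
  · rw [e2]
    ext a b
    simp [Matrix.scalar_apply, Matrix.mul_diagonal, mul_comm]

theorem graph_apply (g : GL (Fin n) F) (s : SLn) :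
    (cHom g * iota : AutP) (π s) = π (conjGL g (invT s)) := rfl

theorem sl_mul_inv (s : SLn) : (s : Mn) * ((s⁻¹ : SLn) : Mn) = 1 := by
  rw [← Matrix.SpecialLinearGroup.coe_mul, mul_inv_cancel, Matrix.SpecialLinearGroup.coe_one]

theorem sl_inv_mul (s : SLn) : ((s⁻¹ : SLn) : Mn) * (s : Mn) = 1 := by
  rw [← Matrix.SpecialLinearGroup.coe_mul, inv_mul_cancel, Matrix.SpecialLinearGroup.coe_one]

theorem iso_H2 (g : GL (Fin n) F) (s : SLn) (hs : s ∈ isoS (g : Mn)) :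
    (cHom g * iota : AutP) (π s) = π s := by
  rw [graph_apply]
  congr 1
  apply Subtype.ext
  rw [conjGL_coe, invT_coe]
  have hs' : (s : Mn) * (g : Mn) * (s : Mn)ᵀ = g := hs
  have h1 : (s : Mn)ᵀ * ((s⁻¹ : SLn) : Mn)ᵀ = 1 := by
    rw [← Matrix.transpose_mul, sl_inv_mul, Matrix.transpose_one]
  calc (g : Mn) * ((s⁻¹ : SLn) : Mn)ᵀ * ((g⁻¹ : GL (Fin n) F) : Mn)
      = ((s : Mn) * (g : Mn) * (s : Mn)ᵀ) * ((s⁻¹ : SLn) : Mn)ᵀ * ((g⁻¹ : GL (Fin n) F) : Mn) := by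
        rw [hs']
    _ = (s : Mn) * ((g : Mn) * ((s : Mn)ᵀ * ((s⁻¹ : SLn) : Mn)ᵀ) * ((g⁻¹ : GL (Fin n) F) : Mn)) := by
        simp only [mul_assoc]
    _ = s := by rw [h1, mul_one, gl_mul_inv, mul_one]

/-- a fixed point of `cHom g * iota` is the class of a similitude -/
theorem simil_of_fix (g : GL (Fin n) F) (x : SLn) (hx : (cHom g * iota : AutP) (π x) = π x) :
    ∃ z : F, z ≠ 0 ∧ (x : Mn) * (g : Mn) * (x : Mn)ᵀ = z • (g : Mn) := by
  rw [graph_apply] at hx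
  obtain ⟨z, hz, e⟩ := exists_scalar_of_mk_eq hx
  rw [conjGL_coe, invT_coe] at e
  refine ⟨z⁻¹, inv_ne_zero hz, ?_⟩
  have h1 : ((x⁻¹ : SLn) : Mn)ᵀ * (x : Mn)ᵀ = 1 := by
    rw [← Matrix.transpose_mul, sl_mul_inv, Matrix.transpose_one]
  have e2 : (g : Mn) = z • ((x : Mn) * (g : Mn) * (x : Mn)ᵀ) := by
    calc (g : Mn) = ((g : Mn) * ((x⁻¹ : SLn) : Mn)ᵀ * ((g⁻¹ : GL (Fin n) F) : Mn)) * (g : Mn) * (x : Mn)ᵀ := by
          rw [mul_assoc _ _ (g : Mn), gl_inv_mul, mul_one, mul_assoc, h1, mul_one]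
      _ = _ := by rw [e, Matrix.smul_mul, Matrix.smul_mul]
  calc (x : Mn) * (g : Mn) * (x : Mn)ᵀ = z⁻¹ • (z • ((x : Mn) * (g : Mn) * (x : Mn)ᵀ)) := by
        rw [smul_smul, inv_mul_cancel₀ hz, one_smul]
    _ = z⁻¹ • (g : Mn) := by rw [← e2]

theorem iso_H4 (g : GL (Fin n) F) (k : Matrix.ProjectiveSpecialLinearGroup (Fin n) F)
    (hk : (cHom g * iota : AutP) k = k) (s : SLn) (hs : s ∈ isoS (g : Mn)) :
    ∃ t ∈ isoS (g : Mn), k * π s * k⁻¹ * (π s)⁻¹ = π t := by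
  induction k using QuotientGroup.induction_on with
  | H x =>
    obtain ⟨z, hz, e⟩ := simil_of_fix g x hk
    refine ⟨x * s * x⁻¹ * s⁻¹, ?_, rfl⟩
    apply Subgroup.mul_mem _ _ (Subgroup.inv_mem _ hs)
    rw [mem_isoS]
    have hs' : (s : Mn) * (g : Mn) * (s : Mn)ᵀ = g := hs
    have e' : ((x⁻¹ : SLn) : Mn) * (g : Mn) * ((x⁻¹ : SLn) : Mn)ᵀ = z⁻¹ • (g : Mn) := by
      have h1 : (x : Mn)ᵀ * ((x⁻¹ : SLn) : Mn)ᵀ = 1 := by
        rw [← Matrix.transpose_mul, sl_inv_mul, Matrix.transpose_one]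
      have h2 : (g : Mn) = z⁻¹ • ((x : Mn) * (g : Mn) * (x : Mn)ᵀ) := by
        rw [e, smul_smul, inv_mul_cancel₀ hz, one_smul]
      calc ((x⁻¹ : SLn) : Mn) * (g : Mn) * ((x⁻¹ : SLn) : Mn)ᵀ
          = ((x⁻¹ : SLn) : Mn) * (z⁻¹ • ((x : Mn) * (g : Mn) * (x : Mn)ᵀ)) * ((x⁻¹ : SLn) : Mn)ᵀ := by
            rw [← h2]
        _ = z⁻¹ • ((((x⁻¹ : SLn) : Mn) * (x : Mn)) * (g : Mn) * ((x : Mn)ᵀ * ((x⁻¹ : SLn) : Mn)ᵀ)) := by
            rw [Matrix.mul_smul, Matrix.smul_mul]; simp only [mul_assoc]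
        _ = _ := by rw [sl_inv_mul, h1, one_mul, mul_one]
    simp only [Matrix.SpecialLinearGroup.coe_mul, Matrix.transpose_mul]
    calc (x : Mn) * (s : Mn) * ((x⁻¹ : SLn) : Mn) * (g : Mn) * (((x⁻¹ : SLn) : Mn)ᵀ * ((s : Mn)ᵀ * (x : Mn)ᵀ))
        = (x : Mn) * ((s : Mn) * (((x⁻¹ : SLn) : Mn) * (g : Mn) * ((x⁻¹ : SLn) : Mn)ᵀ) * (s : Mn)ᵀ) * (x : Mn)ᵀ := by
          simp only [mul_assoc]
      _ = z⁻¹ • ((x : Mn) * ((s : Mn) * (g : Mn) * (s : Mn)ᵀ) * (x : Mn)ᵀ) := by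
          rw [e']; simp only [Matrix.mul_smul, Matrix.smul_mul]
      _ = g := by rw [hs', e, smul_smul, inv_mul_cancel₀ hz, one_smul]

/-- generic derivation of `H5` for the automorphisms outside `PΓL` -/
theorem H5_of_core [Fintype F] (hn : 2 ≤ n) (S : Subgroup SLn) (φ : AutP) (g : GL (Fin n) F)
    (σ : F ≃+* F) (hφ : φ = cHom g * fHom σ * iota) (hφ2 : φ * φ = 1)
    (H2 : ∀ s ∈ S, φ (π s) = π s)
    (hcore : ∀ (h : GL (Fin n) F) (τ : F ≃+* F),
      (∀ s ∈ S, (cHom h * fHom τ : AutP) (π s) = π s) → (cHom h * fHom τ : AutP) = 1)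
    (β : AutP) (hβ : ∀ s ∈ S, β (π s) = π s) : β ^ 2 = 1 := by
  obtain ⟨h, τ, e | e⟩ := aut_psl' hn β
  · rw [e, hcore h τ (by rw [← e]; exact hβ), one_pow]
  · have h1 : β * φ = cHom (h * gmap τ (invTGL g)) * fHom (τ * σ) := by
      rw [e, hφ, map_mul, map_mul]
      calc cHom h * fHom τ * iota * (cHom g * fHom σ * iota)
          = cHom h * fHom τ * (iota * cHom g) * fHom σ * iota := by simp only [mul_assoc]
        _ = cHom h * (fHom τ * cHom (invTGL g)) * (iota * fHom σ) * iota := by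
            rw [iota_mul_cHom]; simp only [mul_assoc]
        _ = cHom h * cHom (gmap τ (invTGL g)) * (fHom τ * fHom σ) * (iota * iota) := by
            rw [fHom_mul_cHom, iota_mul_fHom]; simp only [mul_assoc]
        _ = _ := by rw [iota_mul_self, mul_one]
    have h2 : β * φ = 1 := by
      rw [h1]
      apply hcore
      intro s hs
      rw [← h1, MulAut.mul_apply, H2 s hs, hβ s hs]
    have h3 : β = φ := by
      calc β = β * (φ * φ) := by rw [hφ2, mul_one]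
        _ = (β * φ) * φ := by rw [mul_assoc]
        _ = φ := by rw [h2, one_mul]
    rw [h3, pow_two, hφ2]

/-- from the general "core" statements (with `j = id`) to the form used in `H5_of_core` -/
theorem core_of_gen (S : Subgroup SLn) (h : GL (Fin n) F) (τ : F ≃+* F)
    (hgen : (∀ s ∈ S, ∃ z : F, (h : Mn) * ((s : Mn).map (RingHom.id F)).map τ
        = z • ((s : Mn).map (RingHom.id F) * (h : Mn))) →
      (∃ c : F, (h : Mn) = c • (1 : Mn)) ∧ ∀ a : F, τ (RingHom.id F a) = RingHom.id F a)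
    (hc : ∀ s ∈ S, (cHom h * fHom τ : AutP) (π s) = π s) : (cHom h * fHom τ : AutP) = 1 := by
  obtain ⟨⟨c, hcs⟩, hτ⟩ := hgen (by
    intro s hs
    have h1 : π (conjGL h (mapEquiv τ s)) = π s := hc s hs
    obtain ⟨z, -, e⟩ := exists_scalar_of_mk_eq h1
    rw [conjGL_coe, mapEquiv_coe] at e
    refine ⟨z, ?_⟩
    have hid : (s : Mn).map (RingHom.id F) = (s : Mn) := by ext a b; rfl
    rw [hid]
    calc (h : Mn) * (s : Mn).map τ
        = ((h : Mn) * (s : Mn).map τ * ((h⁻¹ : GL (Fin n) F) : Mn)) * (h : Mn) := by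
          rw [mul_assoc _ _ (h : Mn), gl_inv_mul, mul_one]
      _ = _ := by rw [e, Matrix.smul_mul])
  have hτ1 : τ = 1 := by
    ext a
    exact hτ a
  rw [hτ1, map_one, mul_one]
  apply cHom_eq_one_of_mem_center
  rw [Matrix.GeneralLinearGroup.mem_center_iff_val_mem_range_scalar]
  refine ⟨c, ?_⟩
  rw [hcs]
  ext a b
  simp [Matrix.scalar_apply, Matrix.diagonal_apply, Matrix.one_apply]

section cases
variable [Fintype F]

theorem TT_H3 {ι : Type} [Fintype ι] [DecidableEq ι] (h2 : (2 : F) ≠ 0)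
    (Q : QuadraticForm F (ι → F))
    (hQ : (QuadraticMap.polarBilin Q).Nondegenerate) (hn : 3 ≤ Fintype.card ι) :
    TTH3 Q := by
  by_cases h5 : 5 ≤ Fintype.card ι
  · exact TT_H3_five h2 Q hQ h5
  · by_cases hW : WittOne Q
    · exact TT_H3_wittone h2 Q hQ hn hW
    · have h4 : Fintype.card ι = 4 := by
        by_contra h4
        exact hW (wittOne_of_three Q hQ (by omega))
      exact TT_H3_four h2 Q hQ h4 hW

theorem field_case (r : ℕ) [CharP F r] (hn : 2 ≤ n) (σ : F ≃+* F) (p : ℕ) [Fact p.Prime]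
    (hpr : p ≠ r) (hσ : orderOf σ = p) (A : Subgroup AutP) (hinn : ∀ k, MulAut.conj k ∈ A) :
    pPrimeCore p ↥(A ⊓ Subgroup.centralizer {(fHom σ : AutP)}) ≠ ⊥ ↔
      Nat.Coprime p (Nat.card ↥(MonoidHom.eqLocus (fHom σ : AutP).toMonoidHom
        (MonoidHom.id (Matrix.ProjectiveSpecialLinearGroup (Fin n) F)))) := by
  have hp : p.Prime := Fact.out
  constructor
  · intro h
    by_contra hc
    obtain ⟨t₀, ht₀, ho⟩ := fix_t0 hn σ p hc
    have B : Bal p (fixS σ) (fHom σ : AutP) :=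
      { H2 := by
          intro s hs
          rw [fHom_apply, liftAut_mk, mem_fixS.1 hs]
        H3 := by
          intro N hN
          by_cases hsm : n = 2 ∧ Nat.card {a : F // σ a = a} ≤ 3
          · obtain ⟨rfl, h3⟩ := hsm
            exact fix_H3_small r σ h3 p hpr t₀ ht₀ ho N hN
          · exact fix_H3_big hn σ (by intro h2; by_contra h4; exact hsm ⟨h2, by omega⟩) p t₀ ht₀ ho N hN
        H4 := fix_H4 hn σ
        H5 := fix_H5 hn σ p hσ hp }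
    refine h (B.core (H1 hn) ⟨t₀, ht₀, ?_⟩ A hinn).1
    intro h1
    rw [h1, orderOf_one] at ho
    exact hp.one_lt.ne ho
  · intro hc
    let i0 : Fin n := ⟨0, by omega⟩
    let i1 : Fin n := ⟨1, by omega⟩
    have h01 : i0 ≠ i1 := by simp [i0, i1]
    refine core_ne_bot_of_fix (H1 hn) A hinn _ p hc ⟨π (tr h01 1), ?_, ?_⟩
    · rw [fHom_apply, liftAut_mk, mapEquiv_transvection, map_one]
    · intro h1
      have h2 : π (tr h01 (1 : F)) = π (tr h01 0) := by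
        rw [h1]
        have : tr h01 (0 : F) = 1 := by
          apply Subtype.ext
          simp [Matrix.SpecialLinearGroup.transvection_coe]
        rw [this]; rfl
      exact one_ne_zero (Cfsg.Agent.Lib.Helper50Std.tr_inj h01 h2)

theorem orth_case (hn : 3 ≤ n) (h2 : (2 : F) ≠ 0) (g : GL (Fin n) F) (hg : (g : Mn)ᵀ = g)
    (hφ2 : (cHom g * iota : AutP) * (cHom g * iota) = 1)
    (A : Subgroup AutP) (hinn : ∀ k, MulAut.conj k ∈ A) :
    pPrimeCore 2 ↥(A ⊓ Subgroup.centralizer {(cHom g * iota : AutP)}) = ⊥ ∧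
      ¬ Nat.Coprime 2 (Nat.card ↥(MonoidHom.eqLocus (cHom g * iota : AutP).toMonoidHom
        (MonoidHom.id (Matrix.ProjectiveSpecialLinearGroup (Fin n) F)))) := by
  have hQ := qf_nondeg h2 g hg
  have : Fact (Nat.Prime 2) := ⟨Nat.prime_two⟩
  have B : Bal 2 (eichS (qf ((g⁻¹ : GL (Fin n) F) : Mn))) (cHom g * iota : AutP) :=
    { H2 := orth_H2 h2 g hg
      H3 := orth_H3 hn h2 _ hQ (TT_H3 h2 _ hQ (by simpa using hn))
      H4 := orth_H4 h2 g hg
      H5 := H5_of_core (by omega) _ _ g 1 (by rw [map_one, mul_one]) hφ2 (orth_H2 h2 g hg)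
        (fun h τ => core_of_gen _ h τ (orth_core_gen (RingHom.id F) hn h2 _ hQ h τ)) }
  exact B.core (H1 (by omega)) (orth_ne hn h2 _ hQ) A hinn

theorem symp_case (hn : 3 ≤ n) (h2 : (2 : F) ≠ 0) (g : GL (Fin n) F) (hg : (g : Mn)ᵀ = -(g : Mn))
    (hφ2 : (cHom g * iota : AutP) * (cHom g * iota) = 1)
    (A : Subgroup AutP) (hinn : ∀ k, MulAut.conj k ∈ A) :
    pPrimeCore 2 ↥(A ⊓ Subgroup.centralizer {(cHom g * iota : AutP)}) = ⊥ ∧
      ¬ Nat.Coprime 2 (Nat.card ↥(MonoidHom.eqLocus (cHom g * iota : AutP).toMonoidHom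
        (MonoidHom.id (Matrix.ProjectiveSpecialLinearGroup (Fin n) F)))) := by
  have : Fact (Nat.Prime 2) := ⟨Nat.prime_two⟩
  have B : Bal 2 (isoS (g : Mn)) (cHom g * iota : AutP) :=
    { H2 := iso_H2 g
      H3 := symp_H3 hn h2 g hg
      H4 := iso_H4 g
      H5 := H5_of_core (by omega) _ _ g 1 (by rw [map_one, mul_one]) hφ2 (iso_H2 g)
        (symp_core hn h2 g hg) }
  exact B.core (H1 (by omega)) (symp_ne hn h2 g hg) A hinn

theorem uni_case (hn : 3 ≤ n) (h2 : (2 : F) ≠ 0) (σ : F ≃+* F) (hσ : σ ≠ 1) (hσ2 : σ * σ = 1)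
    (A : Subgroup AutP) (hinn : ∀ k, MulAut.conj k ∈ A) :
    pPrimeCore 2 ↥(A ⊓ Subgroup.centralizer {(fHom σ * iota : AutP)}) = ⊥ ∧
      ¬ Nat.Coprime 2 (Nat.card ↥(MonoidHom.eqLocus (fHom σ * iota : AutP).toMonoidHom
        (MonoidHom.id (Matrix.ProjectiveSpecialLinearGroup (Fin n) F)))) := by
  have : Fact (Nat.Prime 2) := ⟨Nat.prime_two⟩
  obtain ⟨q₀, hF⟩ : ∃ q₀ : ℕ, Fintype.card F = q₀ ^ 2 := by
    obtain ⟨p, -, f, hp, hF⟩ := FiniteField.card' F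
    have : Fact p.Prime := ⟨hp⟩
    obtain ⟨hcyc, hcard⟩ := ringAut_cyclic_card (f := (f : ℕ)) hF
    have hfin : Finite (F ≃+* F) :=
      Finite.of_injective (fun τ : F ≃+* F => (τ : F → F)) DFunLike.coe_injective
    have hord : orderOf σ = 2 := orderOf_eq_prime (by rw [pow_two]; exact hσ2) hσ
    have h2f : 2 ∣ (f : ℕ) := by
      rw [← hord, ← hcard]; exact orderOf_dvd_natCard σ
    exact ⟨p ^ ((f : ℕ) / 2), by rw [hF, ← pow_mul, Nat.div_mul_cancel h2f]⟩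
  have hσq := involution_eq_pow hF σ hσ hσ2
  have B : Bal 2 (Cfsg.SU n F q₀) (fHom σ * iota : AutP) :=
    { H2 := uni_H2 hF σ hσq
      H3 := uni_H3 hn h2 hF
      H4 := uni_H4 hF σ hσq
      H5 := H5_of_core (by omega) _ _ 1 σ (by rw [map_one, one_mul]) (gf_mul_self σ hσ2)
        (uni_H2 hF σ hσq) (uni_core hn hF) }
  exact B.core (H1 (by omega)) (uni_ne hn h2 hF) A hinn

end cases

end Cfsg.Agent.Lib.Helper42LBMain
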