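import Cfsg.Prelude
import Cfsg.Agent.Lib.Helper50UStd
import Cfsg.Agent.Lib.Helper50AutStr

set_option autoImplicit false

namespace Cfsg.Agent.Lib.Helper50UAut

open Matrix Module Cfsg.Agent.Lib.Helper95Herm Cfsg.Agent.Lib.Helper95Basic
  Cfsg.Agent.Lib.Helper95SUStd Cfsg.Agent.Lib.Helper7Herm Cfsg.Agent.Lib.Helper7GU
  Cfsg.Agent.Lib.Helper50USim Cfsg.Agent.Lib.Helper50UStd Cfsg.Agent.Lib.Helper50Aut

variable {F : Type*} [Field F] {q : ℕ} {n : ℕ}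

local notation "SLn" => Matrix.SpecialLinearGroup (Fin n) F
local notation "Mn" => Matrix (Fin n) (Fin n) F
local notation "AutU" => MulAut (Cfsg.PSU n F q)
local notation "πU" => (QuotientGroup.mk : Cfsg.SU n F q → Cfsg.PSU n F q)

lemma mem_SU_iff' (s : SLn) : s ∈ Cfsg.SU n F q ↔
    ∀ u v, Cfsg.hermForm n F q ((s : Mn) *ᵥ u) ((s : Mn) *ᵥ v) = Cfsg.hermForm n F q u v := Iff.rfl

/-- restriction of an automorphism of `SL` to `SU` -/
def restr (θ : SLn ≃* SLn) (h1 : ∀ s ∈ Cfsg.SU n F q, θ s ∈ Cfsg.SU n F q)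
    (h2 : ∀ s ∈ Cfsg.SU n F q, θ.symm s ∈ Cfsg.SU n F q) : Cfsg.SU n F q ≃* Cfsg.SU n F q where
  toFun s := ⟨θ s.1, h1 s.1 s.2⟩
  invFun s := ⟨θ.symm s.1, h2 s.1 s.2⟩
  left_inv s := Subtype.ext (θ.symm_apply_apply _)
  right_inv s := Subtype.ext (θ.apply_symm_apply _)
  map_mul' a b := Subtype.ext (map_mul θ _ _)

lemma conjGL_mem (g : GL (Fin n) F) (hg : g ∈ Cfsg.GU n F q) (s : SLn) (hs : s ∈ Cfsg.SU n F q) :
    conjGL g s ∈ Cfsg.SU n F q := by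
  rw [mem_SU_iff']
  intro u v
  have hg' : g⁻¹ ∈ Cfsg.GU n F q := inv_mem hg
  rw [conjGL_coe, ← Matrix.mulVec_mulVec, ← Matrix.mulVec_mulVec, ← Matrix.mulVec_mulVec,
    ← Matrix.mulVec_mulVec]
  rw [(mem_GU_iff' n g).1 hg, (mem_SU_iff' s).1 hs, (mem_GU_iff' n g⁻¹).1 hg']

/-- conjugation by a unitary matrix -/
def conjSU (g : Cfsg.GU n F q) : Cfsg.SU n F q ≃* Cfsg.SU n F q :=
  restr (conjGL g.1) (conjGL_mem g.1 g.2) (conjGL_mem g.1⁻¹ (inv_mem g.2))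

lemma conjSU_coe (g : Cfsg.GU n F q) (s : Cfsg.SU n F q) :
    ((conjSU g s).1 : Mn) = (g.1 : Mn) * (s.1 : Mn) * ((g.1⁻¹ : GL (Fin n) F) : Mn) := rfl

lemma herm_map (τ : F ≃+* F) (u v : Fin n → F) :
    Cfsg.hermForm n F q (τ ∘ u) (τ ∘ v) = τ (Cfsg.hermForm n F q u v) := by
  simp [Cfsg.hermForm, map_sum]

lemma map_mulVec (τ : F ≃+* F) (M : Mn) (u : Fin n → F) : M.map τ *ᵥ (τ ∘ u) = τ ∘ (M *ᵥ u) := by
  ext i
  exact (RingHom.map_mulVec (τ : F →+* F) M u i).symm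

lemma mapEquiv_mem (τ : F ≃+* F) (s : SLn) (hs : s ∈ Cfsg.SU n F q) :
    mapEquiv τ s ∈ Cfsg.SU n F q := by
  rw [mem_SU_iff']
  intro u v
  have hu : u = τ ∘ (τ.symm ∘ u) := by ext i; simp
  have hv : v = τ ∘ (τ.symm ∘ v) := by ext i; simp
  rw [mapEquiv_coe, hu, hv, map_mulVec, map_mulVec, herm_map, herm_map, (mem_SU_iff' s).1 hs]

/-- entrywise field automorphism of `SU` -/
def mapSU (τ : F ≃+* F) : Cfsg.SU n F q ≃* Cfsg.SU n F q :=
  restr (mapEquiv τ) (mapEquiv_mem τ) (mapEquiv_mem τ.symm)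

lemma mapSU_coe (τ : F ≃+* F) (s : Cfsg.SU n F q) : ((mapSU τ s).1 : Mn) = (s.1 : Mn).map τ := rfl

/-- `GU → Aut(PSU)` -/
noncomputable def cU : Cfsg.GU n F q →* AutU :=
  MonoidHom.mk' (fun g => liftG (conjSU g)) (fun g h => by
    ext x
    obtain ⟨s, rfl⟩ := QuotientGroup.mk_surjective x
    rw [MulAut.mul_apply, liftG_mk, liftG_mk, liftG_mk]
    congr 1
    apply Subtype.ext
    apply Subtype.ext
    rw [conjSU_coe, conjSU_coe, conjSU_coe]
    show ((g.1 * h.1 : GL (Fin n) F) : Mn) * _ * (((g.1 * h.1)⁻¹ : GL (Fin n) F) : Mn) = _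
    rw [_root_.mul_inv_rev, Units.val_mul, Units.val_mul]
    simp only [mul_assoc])

lemma cU_mk (g : Cfsg.GU n F q) (s : Cfsg.SU n F q) : cU g (πU s) = πU (conjSU g s) := rfl

/-- `Aut(F) → Aut(PSU)` -/
noncomputable def fU : (F ≃+* F) →* AutU :=
  MonoidHom.mk' (fun τ => liftG (mapSU τ)) (fun σ τ => by
    ext x
    obtain ⟨s, rfl⟩ := QuotientGroup.mk_surjective x
    rfl)

lemma fU_mk (τ : F ≃+* F) (s : Cfsg.SU n F q) : fU τ (πU s) = πU (mapSU τ s) := rfl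

theorem isInnerDiagonal_iff (δ : AutU) :
    Cfsg.IsInnerDiagonalAutPSU δ ↔ ∃ g : Cfsg.GU n F q, δ = cU g := by
  constructor
  · rintro ⟨g, hg, h⟩
    refine ⟨⟨g, hg⟩, ?_⟩
    ext x
    obtain ⟨s, rfl⟩ := QuotientGroup.mk_surjective x
    rw [cU_mk]
    exact h s _ rfl
  · rintro ⟨g, rfl⟩
    refine ⟨g.1, g.2, fun s s' h => ?_⟩
    rw [cU_mk]
    congr 1
    exact Subtype.ext (Subtype.ext h.symm)

theorem isField_iff (τ : F ≃+* F) (φ : AutU) : Cfsg.IsFieldAutPSUOf τ φ ↔ φ = fU τ := by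
  constructor
  · intro h
    ext x
    obtain ⟨s, rfl⟩ := QuotientGroup.mk_surjective x
    rw [fU_mk]
    exact h s _ rfl
  · rintro rfl s s' h
    rw [fU_mk]
    congr 1
    exact Subtype.ext (Subtype.ext h.symm)

theorem isInduced_iff (g : Cfsg.GU n F q) (τ : F ≃+* F) (β : AutU) :
    Cfsg.IsInducedBySemilinearPSU g.1 τ β ↔ β = cU g * fU τ := by
  constructor
  · intro h
    ext x
    obtain ⟨s, rfl⟩ := QuotientGroup.mk_surjective x
    rw [MulAut.mul_apply, fU_mk, cU_mk]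
    exact h s _ rfl
  · rintro rfl s s' h
    rw [MulAut.mul_apply, fU_mk, cU_mk]
    congr 1
    exact Subtype.ext (Subtype.ext h.symm)

/-- **Automorphisms of `PSU_n(q)`** -/
theorem aut_psu [Fintype F] (hF : Fintype.card F = q ^ 2) (hn : 3 ≤ n) (hs : ¬ (n = 3 ∧ q = 2))
    (β : AutU) : ∃ (g : Cfsg.GU n F q) (τ : F ≃+* F), β = cU g * fU τ := by
  obtain ⟨τ, γ, Θ, hS, hγ, hβ⟩ := aut_semilinear hF hn hs β
  have h := herm_std hF n
  obtain ⟨ν, hν⟩ := h.norm_surj γ hγ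
  have hν0 : ν ≠ 0 := by
    rintro rfl
    rw [zero_mul] at hν
    exact hS.ne hν.symm
  let L : (Fin n → F) →ₗ[F] (Fin n → F) :=
    { toFun := fun x => ν⁻¹ • Θ (τ.symm ∘ x)
      map_add' := by
        intro x y
        have : τ.symm ∘ (x + y) = τ.symm ∘ x + τ.symm ∘ y := by ext i; simp
        rw [this, map_add, smul_add]
      map_smul' := by
        intro c x
        have : τ.symm ∘ (c • x) = τ.symm c • (τ.symm ∘ x) := by ext i; simp
        rw [this, hS.smul, RingEquiv.apply_symm_apply, RingHom.id_apply, smul_comm] }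
  have hL : ∀ x, L x = ν⁻¹ • Θ (τ.symm ∘ x) := fun x => rfl
  have hinj : Function.Injective L := by
    rw [injective_iff_map_eq_zero]
    intro x hx
    rw [hL] at hx
    have h1 : Θ (τ.symm ∘ x) = 0 := (smul_eq_zero.1 hx).resolve_left (inv_ne_zero hν0)
    have h2 : τ.symm ∘ x = 0 := by
      apply Θ.injective
      rw [h1, map_zero]
    ext i
    have := congrFun h2 i
    simpa using this
  have hbij : Function.Bijective L := ⟨hinj, LinearMap.injective_iff_surjective.1 hinj⟩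
  let g : GL (Fin n) F := mkGL (LinearEquiv.ofBijective L hbij)
  have hgv : ∀ x, (g : Mn) *ᵥ x = ν⁻¹ • Θ (τ.symm ∘ x) := by
    intro x
    show ((mkGL (LinearEquiv.ofBijective L hbij) : GL (Fin n) F) : Mn) *ᵥ x = _
    rw [mkGL_mulVec]
    rfl
  have hg : g ∈ Cfsg.GU n F q := by
    rw [mem_GU_iff']
    intro u v
    rw [hgv, hgv, h.smul_left, h.smul_right, hS.form, ← herm_map τ]
    have e1 : τ ∘ (τ.symm ∘ u) = u := by ext i; simp
    have e2 : τ ∘ (τ.symm ∘ v) = v := by ext i; simp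
    rw [e1, e2, map_inv₀, ← hν]
    have hσν : sig hF ν ≠ 0 := by
      intro h0
      rw [h0, mul_zero] at hν
      exact hS.ne hν.symm
    field_simp
  have hΘ : ∀ x, Θ x = ν • ((g : Mn) *ᵥ (τ ∘ x)) := by
    intro x
    have e1 : τ.symm ∘ (τ ∘ x) = x := by ext i; simp
    rw [hgv, e1, smul_smul, mul_inv_cancel₀ hν0, one_smul]
  refine ⟨⟨g, hg⟩, τ, ?_⟩
  ext x
  obtain ⟨s, rfl⟩ := QuotientGroup.mk_surjective x
  rw [MulAut.mul_apply, fU_mk, cU_mk]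
  apply hβ
  intro x
  rw [conjSU_coe, mapSU_coe, hΘ, hΘ, Matrix.mulVec_smul, Matrix.mulVec_mulVec, mul_assoc,
    gl_inv_mul, mul_one, ← Matrix.mulVec_mulVec, map_mulVec]

end Cfsg.Agent.Lib.Helper50UAut
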