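import Cfsg.Agent.Lib.Helper50UAut
import Cfsg.Agent.Lib.Helper50UTriv
import Cfsg.Agent.Lib.Helper7SUCenter
import Cfsg.Agent.Lib.Helper50Out

set_option autoImplicit false

namespace Cfsg.Agent.Lib.Helper50UOut

open Matrix Module Cfsg.Agent.Lib.Helper95Herm Cfsg.Agent.Lib.Helper95Basic
  Cfsg.Agent.Lib.Helper95SUStd Cfsg.Agent.Lib.Helper7Herm Cfsg.Agent.Lib.Helper7GU
  Cfsg.Agent.Lib.Helper50USim Cfsg.Agent.Lib.Helper50UStd Cfsg.Agent.Lib.Helper50Aut
  Cfsg.Agent.Lib.Helper50UAut Cfsg.Agent.Lib.Helper50UGeom Cfsg.Agent.Lib.Helper50UGrp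

variable {F : Type*} [Field F] {q : ℕ} {n : ℕ}

local notation "SLn" => Matrix.SpecialLinearGroup (Fin n) F
local notation "Mn" => Matrix (Fin n) (Fin n) F
local notation "AutU" => MulAut (Cfsg.PSU n F q)
local notation "πU" => (QuotientGroup.mk : Cfsg.SU n F q → Cfsg.PSU n F q)

lemma map_mem_GU (τ : F ≃+* F) (g : GL (Fin n) F) (hg : g ∈ Cfsg.GU n F q) :
    Matrix.GeneralLinearGroup.map (τ : F →+* F) g ∈ Cfsg.GU n F q := by
  rw [mem_GU_iff']
  intro u v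
  have hu : u = τ ∘ (τ.symm ∘ u) := by ext i; simp
  have hv : v = τ ∘ (τ.symm ∘ v) := by ext i; simp
  show Cfsg.hermForm n F q ((g : Mn).map τ *ᵥ u) ((g : Mn).map τ *ᵥ v) = _
  rw [hu, hv, map_mulVec, map_mulVec, herm_map, herm_map, (mem_GU_iff' n g).1 hg]

/-- entrywise field automorphism on `GU` -/
def mapGU (τ : F ≃+* F) : Cfsg.GU n F q →* Cfsg.GU n F q where
  toFun g := ⟨Matrix.GeneralLinearGroup.map (τ : F →+* F) g.1, map_mem_GU τ g.1 g.2⟩
  map_one' := Subtype.ext (map_one _)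
  map_mul' a b := Subtype.ext (map_mul _ _ _)

lemma mapGU_coe (τ : F ≃+* F) (g : Cfsg.GU n F q) : ((mapGU τ g).1 : Mn) = (g.1 : Mn).map τ := rfl

theorem fU_mul_cU (τ : F ≃+* F) (g : Cfsg.GU n F q) :
    (fU τ : AutU) * cU g = cU (mapGU τ g) * fU τ := by
  ext x
  obtain ⟨s, rfl⟩ := QuotientGroup.mk_surjective x
  simp only [MulAut.mul_apply, fU_mk, cU_mk]
  congr 1
  apply Subtype.ext
  apply Subtype.ext
  rw [mapSU_coe, conjSU_coe, conjSU_coe, mapSU_coe]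
  have e1 : (((mapGU τ g).1⁻¹ : GL (Fin n) F) : Mn) = ((g.1⁻¹ : GL (Fin n) F) : Mn).map τ := by
    show ((Matrix.GeneralLinearGroup.map (τ : F →+* F) g.1)⁻¹ : GL (Fin n) F).1 = _
    rw [← Matrix.GeneralLinearGroup.map_inv]
    rfl
  rw [e1, mapGU_coe]
  show ((g.1 : Mn) * (s.1 : Mn) * ((g.1⁻¹ : GL (Fin n) F) : Mn)).map (τ : F →+* F) =
    (g.1 : Mn).map (τ : F →+* F) * (s.1 : Mn).map (τ : F →+* F) *
      ((g.1⁻¹ : GL (Fin n) F) : Mn).map (τ : F →+* F)
  rw [Matrix.map_mul, Matrix.map_mul]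

/-- the semilinear map `x ↦ g τ(x)` -/
def thetaOf (g : GL (Fin n) F) (τ : F ≃+* F) : (Fin n → F) ≃+ (Fin n → F) where
  toFun x := (g : Mn) *ᵥ (τ ∘ x)
  invFun y := τ.symm ∘ (((g⁻¹ : GL (Fin n) F) : Mn) *ᵥ y)
  left_inv x := by
    simp only [inv_mulVec_mulVec]
    ext i; simp
  right_inv y := by
    have : τ ∘ (τ.symm ∘ (((g⁻¹ : GL (Fin n) F) : Mn) *ᵥ y)) = ((g⁻¹ : GL (Fin n) F) : Mn) *ᵥ y := by
      ext i; simp
    simp only [this, mulVec_inv_mulVec]
  map_add' x y := by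
    have : τ ∘ (x + y) = τ ∘ x + τ ∘ y := by ext i; simp
    simp only [this, Matrix.mulVec_add]

lemma thetaOf_apply (g : GL (Fin n) F) (τ : F ≃+* F) (x : Fin n → F) :
    thetaOf g τ x = (g : Mn) *ᵥ (τ ∘ x) := rfl

lemma semiSim_theta (g : Cfsg.GU n F q) (τ : F ≃+* F) :
    SemiSim (Cfsg.hermForm n F q) τ 1 (thetaOf g.1 τ) where
  ne := one_ne_zero
  smul c x := by
    have : τ ∘ (c • x) = τ c • (τ ∘ x) := by ext i; simp
    rw [thetaOf_apply, thetaOf_apply, this, Matrix.mulVec_smul]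
  form x y := by
    rw [thetaOf_apply, thetaOf_apply, (mem_GU_iff' n g.1).1 g.2, herm_map, one_mul]

lemma psi_cU_fU (g : Cfsg.GU n F q) (τ : F ≃+* F) (s : Cfsg.SU n F q) :
    psi ((cU g * fU τ : AutU) (πU s)) = QuotientGroup.mk (conjS (semiSim_theta g τ) (iota s)) := by
  rw [MulAut.mul_apply, fU_mk, cU_mk, psi_mk]
  congr 1
  symm
  apply conjS_eq
  intro x
  rw [iota_apply, iota_apply, conjSU_coe, mapSU_coe, thetaOf_apply, thetaOf_apply,
    Matrix.mulVec_mulVec, mul_assoc, gl_inv_mul, mul_one, ← Matrix.mulVec_mulVec, map_mulVec]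

section fin

variable [Fintype F] (hF : Fintype.card F = q ^ 2)

include hF in
lemma exists_frame_std (hn : 2 ≤ n) : ∃ u v : Fin n → F, Frame (Cfsg.hermForm n F q) u v := by
  have hp : Fact (ringChar F).Prime := ⟨CharP.char_is_prime F (ringChar F)⟩
  obtain ⟨u, hu0, huu, -⟩ := Cfsg.Agent.Lib.Helper50UPar.exists_fixed_iso (herm_std hF n)
    (ringChar F) (by rw [Module.finrank_fin_fun]; exact hn)
    (⊥ : Subgroup (SUg (Cfsg.hermForm n F q))) (IsPGroup.of_bot)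
  obtain ⟨v, Fr⟩ := exists_frame (herm_std hF n) u hu0 huu
  exact ⟨u, v, Fr⟩

include hF in
theorem cU_mul_fU_eq_one (hn : 3 ≤ n) (g : Cfsg.GU n F q) (τ : F ≃+* F)
    (e : cU g * fU τ = (1 : AutU)) : τ = 1 ∧ ∃ c : F, ∀ x, (g.1 : Mn) *ᵥ x = c • x := by
  obtain ⟨u, v, Fr⟩ := exists_frame_std (n := n) hF (by omega)
  obtain ⟨h1, c, hc⟩ := Cfsg.Agent.Lib.Helper50UTriv.trivial_semisim (herm_std hF n)
    (by rw [Module.finrank_fin_fun]; exact hn) Fr (semiSim_theta g τ) (map_one _)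
    (fun c => by rw [sig_apply, sig_apply, map_pow]) (by
      intro e'
      obtain ⟨s, rfl⟩ := iota.surjective e'
      rw [← psi_cU_fU, e, MulAut.one_apply, psi_mk])
  refine ⟨h1, c, fun x => ?_⟩
  have := hc x
  rw [thetaOf_apply, h1] at this
  exact this

end fin

lemma coe_eq_smul_one (g : GL (Fin n) F) (c : F) (hc : ∀ x, (g : Mn) *ᵥ x = c • x) :
    (g : Mn) = c • (1 : Mn) := by
  apply Matrix.toLin'.injective
  apply LinearMap.ext
  intro x
  rw [Matrix.toLin'_apply, Matrix.toLin'_apply, hc, Matrix.smul_mulVec, Matrix.one_mulVec]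

theorem cU_eq_one_of_scalar (g : Cfsg.GU n F q) (c : F) (hc : ∀ x, (g.1 : Mn) *ᵥ x = c • x) :
    cU g = (1 : AutU) := by
  ext x
  obtain ⟨s, rfl⟩ := QuotientGroup.mk_surjective x
  rw [cU_mk, MulAut.one_apply]
  congr 1
  apply Subtype.ext
  apply Subtype.ext
  rw [conjSU_coe]
  have h1 := coe_eq_smul_one g.1 c hc
  have h2 : (g.1 : Mn) * (s.1 : Mn) = (s.1 : Mn) * (g.1 : Mn) := by
    rw [h1]; simp
  rw [h2, mul_assoc, gl_mul_inv, mul_one]

/-- the norm one group -/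
abbrev CC (F : Type*) [Field F] (q : ℕ) : Subgroup Fˣ := (powMonoidHom (q + 1) : Fˣ →* Fˣ).ker

lemma mem_CC (c : Fˣ) : c ∈ CC F q ↔ (c : F) ^ (q + 1) = 1 := by
  rw [MonoidHom.mem_ker, powMonoidHom_apply, Units.ext_iff]
  simp

/-- scalar unitary matrices -/
noncomputable def scU : CC F q →* Cfsg.GU n F q where
  toFun c := ⟨Matrix.GeneralLinearGroup.scalar (Fin n) c.1, by
    rw [mem_GU_iff']
    intro u v
    have h1 : ∀ x : Fin n → F, ((Matrix.GeneralLinearGroup.scalar (Fin n) c.1 : GL (Fin n) F) : Mn) *ᵥ x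
        = (c.1 : F) • x := by
      intro x
      simp [Matrix.GeneralLinearGroup.scalar, Matrix.smul_mulVec]
    rw [h1, h1, h_smul_left, h_smul_right, ← mul_assoc, ← pow_succ', (mem_CC c.1).1 c.2, one_mul]⟩
  map_one' := Subtype.ext (map_one _)
  map_mul' a b := Subtype.ext (map_mul _ _ _)

lemma scU_mulVec (c : CC F q) (x : Fin n → F) : ((scU c : Cfsg.GU n F q).1 : Mn) *ᵥ x = (c.1 : F) • x := by
  show ((Matrix.GeneralLinearGroup.scalar (Fin n) c.1 : GL (Fin n) F) : Mn) *ᵥ x = _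
  simp [Matrix.GeneralLinearGroup.scalar, Matrix.smul_mulVec]


lemma scU_injective (hn : 1 ≤ n) : Function.Injective (scU : CC F q →* Cfsg.GU n F q) := by
  intro a b e
  have h1 := scU_mulVec (n := n) a (Pi.single ⟨0, hn⟩ 1)
  rw [e, scU_mulVec] at h1
  have h2 := congrFun h1 ⟨0, hn⟩
  simp only [Pi.smul_apply, Pi.single_eq_same, smul_eq_mul, mul_one] at h2
  exact Subtype.ext (Units.ext h2.symm)

section fin2

variable [Fintype F] (hF : Fintype.card F = q ^ 2)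

include hF in
theorem card_CC : Nat.card (CC F q) = q + 1 := by
  rw [IsCyclic.card_powMonoidHom_ker, card_units hF]
  exact Nat.gcd_eq_right (Dvd.intro_left _ rfl)

include hF in
theorem ker_cU (hn : 3 ≤ n) :
    (cU : Cfsg.GU n F q →* AutU).ker = (scU : CC F q →* Cfsg.GU n F q).range := by
  ext g
  rw [MonoidHom.mem_ker]
  constructor
  · intro e
    obtain ⟨-, c, hc⟩ := cU_mul_fU_eq_one hF hn g 1 (by rw [map_one, mul_one, e])
    obtain ⟨u, v, Fr⟩ := exists_frame_std (n := n) hF (by omega)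
    have h1 := (mem_GU_iff' n g.1).1 g.2 u v
    rw [hc, hc, h_smul_left, h_smul_right, ← mul_assoc, ← pow_succ', Fr.uv, mul_one] at h1
    have hc0 : c ≠ 0 := by
      rintro rfl
      rw [zero_pow (by omega)] at h1
      exact zero_ne_one h1
    refine ⟨⟨Units.mk0 c hc0, (mem_CC _).2 h1⟩, ?_⟩
    apply Subtype.ext
    apply Units.ext
    rw [coe_eq_smul_one g.1 c hc]
    exact coe_eq_smul_one _ c (fun x => scU_mulVec _ x)
  · rintro ⟨c, rfl⟩
    exact cU_eq_one_of_scalar _ _ (scU_mulVec c)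

include hF in
theorem card_range_cU (hn : 3 ≤ n) :
    Nat.card (cU : Cfsg.GU n F q →* AutU).range = Nat.card (Cfsg.SU n F q) := by
  have h1 := Subgroup.card_mul_index (cU : Cfsg.GU n F q →* AutU).ker
  rw [Subgroup.index_ker, ker_cU hF hn,
    ← Nat.card_congr (MonoidHom.ofInjective (scU_injective (F := F) (q := q) (n := n) (by omega))).toEquiv,
    card_CC hF, ← Cfsg.Agent.Lib.Helper7SU.card_SU_mul hF (by omega)] at h1
  exact Nat.eq_of_mul_eq_mul_left (Nat.succ_pos q) h1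

include hF in
theorem card_SU_eq (hn : 1 ≤ n) :
    Nat.card (Cfsg.SU n F q) = Nat.gcd n (q + 1) * Nat.card (Cfsg.PSU n F q) := by
  rw [Subgroup.card_eq_card_quotient_mul_card_subgroup (Subgroup.center (Cfsg.SU n F q)),
    Cfsg.Agent.Lib.Helper7SUCenter.card_center_SU hF hn, mul_comm]

include hF in
theorem normal_range_cU (hn : 3 ≤ n) (hs : ¬ (n = 3 ∧ q = 2)) :
    (cU : Cfsg.GU n F q →* AutU).range.Normal := by
  constructor
  rintro _ ⟨g, rfl⟩ β
  obtain ⟨h, σ, e⟩ := aut_psu hF hn hs β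
  refine ⟨h * mapGU σ g * h⁻¹, ?_⟩
  have e1 : fU σ * cU g * (fU σ : AutU)⁻¹ = cU (mapGU σ g) := by
    rw [fU_mul_cU, mul_inv_cancel_right]
  rw [map_mul, map_mul, map_inv, ← e1, e]
  group

include hF in
theorem exists_hom_U (hn : 3 ≤ n) (hs : ¬ (n = 3 ∧ q = 2)) :
    ∃ r : AutU →* (F ≃+* F), r.ker = (cU : Cfsg.GU n F q →* AutU).range ∧
      (∀ τ, r (fU τ) = τ) := by
  have := normal_range_cU (n := n) hF hn hs
  exact Cfsg.Agent.Lib.Helper50AutStr.exists_retraction (cU : Cfsg.GU n F q →* AutU).range fU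
    (fun β => by
      obtain ⟨g, σ, e⟩ := aut_psu hF hn hs β
      exact ⟨_, ⟨g, rfl⟩, σ, e⟩)
    (fun σ => by
      rintro ⟨g, hg⟩
      refine (cU_mul_fU_eq_one hF hn g⁻¹ σ ?_).1
      rw [map_inv, hg, inv_mul_cancel])

include hF in
theorem card_aut_U (hn : 3 ≤ n) (hs : ¬ (n = 3 ∧ q = 2)) :
    Nat.card AutU = Nat.gcd n (q + 1) * Nat.card (F ≃+* F) * Nat.card (Cfsg.PSU n F q) := by
  obtain ⟨r, hr, hr2⟩ := exists_hom_U (n := n) hF hn hs
  have hsurj : Function.Surjective r := fun τ => ⟨_, hr2 τ⟩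
  rw [← Subgroup.card_mul_index r.ker, Subgroup.index_ker, MonoidHom.range_eq_top.2 hsurj,
    Subgroup.card_top, hr, card_range_cU hF hn, card_SU_eq hF (by omega)]
  ring

end fin2

/-- `SU → GU` -/
def toGU : Cfsg.SU n F q →* Cfsg.GU n F q where
  toFun s := ⟨Matrix.SpecialLinearGroup.toGL s.1, (mem_GU_iff' n _).2 ((mem_SU_iff' s.1).1 s.2)⟩
  map_one' := Subtype.ext (map_one _)
  map_mul' a b := Subtype.ext (map_mul _ _ _)

theorem cU_toGU (s : Cfsg.SU n F q) : cU (toGU s) = MulAut.conj (πU s) := by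
  ext x
  obtain ⟨t, rfl⟩ := QuotientGroup.mk_surjective x
  rw [cU_mk, MulAut.conj_apply, ← QuotientGroup.mk_inv, ← QuotientGroup.mk_mul,
    ← QuotientGroup.mk_mul]
  congr 1


open Cfsg.Agent.Lib.Helper7SU in
lemma detGU_toGU (s : Cfsg.SU n F q) : detGU n F q (toGU s) = 1 := by
  ext
  simp [detGU, toGU]

open Cfsg.Agent.Lib.Helper7SU in
lemma detGU_scU (c : CC F q) : detGU n F q (scU c) = c.1 ^ n := by
  show Matrix.GeneralLinearGroup.det (Matrix.GeneralLinearGroup.scalar (Fin n) c.1) = _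
  rw [Matrix.GeneralLinearGroup.det_scalar, Fintype.card_fin]

lemma exists_toGU_of_det (g : Cfsg.GU n F q) (hg : Cfsg.Agent.Lib.Helper7SU.detGU n F q g = 1) :
    ∃ s : Cfsg.SU n F q, toGU s = g := by
  have h2 : (g.1 : Mn).det = 1 := by
    have := congrArg Units.val hg
    simpa [Cfsg.Agent.Lib.Helper7SU.detGU] using this
  refine ⟨⟨⟨_, h2⟩, (mem_SU_iff' _).2 ((mem_GU_iff' n g.1).1 g.2)⟩, ?_⟩
  apply Subtype.ext
  apply Units.ext
  rfl

section fin3

variable [Fintype F] (hF : Fintype.card F = q ^ 2)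

open Cfsg.Agent.Lib.Helper7SU

/-- determinant with values in the norm one group -/
noncomputable def DU (hF : Fintype.card F = q ^ 2) (hn : 1 ≤ n) : Cfsg.GU n F q →* CC F q :=
  (detGU n F q).codRestrict (CC F q) (fun g => by
    show _ ∈ (powMonoidHom (q + 1) : Fˣ →* Fˣ).ker
    rw [← range_detGU hF hn]; exact ⟨g, rfl⟩)

lemma DU_coe (hn : 1 ≤ n) (g : Cfsg.GU n F q) : (DU hF hn g).1 = detGU n F q g := rfl

lemma DU_surjective (hn : 1 ≤ n) : Function.Surjective (DU (n := n) hF hn) := by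
  rintro ⟨c, hc⟩
  have hc' : c ∈ (powMonoidHom (q + 1) : Fˣ →* Fˣ).ker := hc
  rw [← range_detGU hF hn] at hc'
  obtain ⟨g, rfl⟩ := hc'
  exact ⟨g, rfl⟩

theorem cU_mem_inn_iff (hn : 3 ≤ n) (g : Cfsg.GU n F q) :
    cU g ∈ Cfsg.Inn (Cfsg.PSU n F q) ↔
      DU hF (by omega) g ∈ (powMonoidHom n : CC F q →* CC F q).range := by
  constructor
  · rintro ⟨x, hx⟩
    obtain ⟨s, rfl⟩ := QuotientGroup.mk_surjective x
    rw [← cU_toGU] at hx
    have h1 : (toGU s)⁻¹ * g ∈ (cU : Cfsg.GU n F q →* AutU).ker := by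
      rw [MonoidHom.mem_ker, map_mul, map_inv, hx, inv_mul_cancel]
    rw [ker_cU hF hn] at h1
    obtain ⟨z, hz⟩ := h1
    refine ⟨z, ?_⟩
    have h2 := congrArg (detGU n F q) hz
    rw [detGU_scU, map_mul, map_inv, detGU_toGU, inv_one, one_mul] at h2
    apply Subtype.ext
    rw [DU_coe, ← h2]
    rfl
  · rintro ⟨z, hz⟩
    have hz' : z.1 ^ n = detGU n F q g := by
      rw [← DU_coe hF (by omega), ← hz]; rfl
    have h1 : detGU n F q (g * (scU z)⁻¹) = 1 := by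
      rw [map_mul, map_inv, detGU_scU, hz', mul_inv_cancel]
    obtain ⟨s0, hs0⟩ := exists_toGU_of_det _ h1
    refine ⟨πU s0, ?_⟩
    rw [← cU_toGU, hs0, map_mul, map_inv, cU_eq_one_of_scalar (scU z) _ (scU_mulVec z), inv_one,
      mul_one]

include hF in
theorem out_hom_U (hn : 3 ≤ n) {Q : Type*} [Group Q] (r : AutU →* Q)
    (hr : r.ker = (cU : Cfsg.GU n F q →* AutU).range) (hs : Function.Surjective r) :
    ∃ φ : Cfsg.Out (Cfsg.PSU n F q) →* Q,
      Function.Surjective φ ∧ IsCyclic φ.ker ∧ Nat.card φ.ker = Nat.gcd n (q + 1) := by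
  have hn1 : 1 ≤ n := by omega
  have hInn : Cfsg.Inn (Cfsg.PSU n F q) ≤ r.ker := by
    rintro _ ⟨x, rfl⟩
    obtain ⟨s, rfl⟩ := QuotientGroup.mk_surjective x
    rw [hr]
    exact ⟨_, cU_toGU s⟩
  let φ : Cfsg.Out (Cfsg.PSU n F q) →* Q :=
    QuotientGroup.lift (Cfsg.Inn (Cfsg.PSU n F q)) r hInn
  let ψ : Cfsg.GU n F q →* Cfsg.Out (Cfsg.PSU n F q) :=
    (QuotientGroup.mk' (Cfsg.Inn (Cfsg.PSU n F q))).comp cU
  have hψker : ψ.ker = (powMonoidHom n : CC F q →* CC F q).range.comap (DU hF hn1) := by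
    ext g
    rw [MonoidHom.mem_ker, Subgroup.mem_comap, ← cU_mem_inn_iff hF hn]
    exact QuotientGroup.eq_one_iff _
  have hφker : φ.ker = ψ.range := by
    ext x
    obtain ⟨β, rfl⟩ := QuotientGroup.mk_surjective x
    rw [MonoidHom.mem_ker]
    show r β = 1 ↔ _
    rw [← MonoidHom.mem_ker, hr]
    constructor
    · rintro ⟨g, rfl⟩
      exact ⟨g, rfl⟩
    · rintro ⟨g, hg⟩
      have h1 : (cU g)⁻¹ * β ∈ Cfsg.Inn (Cfsg.PSU n F q) :=
        QuotientGroup.eq.1 hg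
      have h2 := hInn h1
      rw [hr] at h2
      have h3 := mul_mem (⟨g, rfl⟩ : cU g ∈ (cU : Cfsg.GU n F q →* AutU).range) h2
      rwa [mul_inv_cancel_left] at h3
  have hdet := DU_surjective (n := n) hF hn1
  refine ⟨φ, ?_, ?_, ?_⟩
  · intro q
    obtain ⟨β, rfl⟩ := hs q
    exact ⟨QuotientGroup.mk β, rfl⟩
  · rw [hφker]
    have hle : (DU (n := n) hF hn1).ker ≤ ψ.ker := by
      intro g hg
      rw [hψker, Subgroup.mem_comap, MonoidHom.mem_ker.1 hg]
      exact one_mem _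
    let Θ : CC F q →* Cfsg.Out (Cfsg.PSU n F q) :=
      MonoidHom.liftOfSurjective _ hdet ⟨ψ, hle⟩
    have hΘ : ∀ g, Θ (DU hF hn1 g) = ψ g := fun g =>
      MonoidHom.liftOfRightInverse_comp_apply _ _ _ ⟨ψ, hle⟩ g
    have hrange : ψ.range = Θ.range := by
      ext x
      constructor
      · rintro ⟨g, rfl⟩
        exact ⟨_, hΘ g⟩
      · rintro ⟨z, rfl⟩
        obtain ⟨g, rfl⟩ := hdet z
        exact ⟨g, (hΘ g).symm⟩
    rw [hrange]
    exact isCyclic_of_surjective Θ.rangeRestrict Θ.rangeRestrict_surjective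
  · rw [hφker, ← Subgroup.index_ker, hψker, Subgroup.index_comap_of_surjective _ hdet,
      IsCyclic.index_powMonoidHom_range, card_CC hF, Nat.gcd_comm]

end fin3

end Cfsg.Agent.Lib.Helper50UOut
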