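import Cfsg.Agent.Lib.Helper50UH90

set_option autoImplicit false

namespace Cfsg.Agent.Lib.Helper50UTw

open Matrix Cfsg.Agent.Lib.Helper95SUStd Cfsg.Agent.Lib.Helper7Herm Cfsg.Agent.Lib.Helper7GU
  Cfsg.Agent.Lib.Helper50H90 Cfsg.Agent.Lib.Helper50HermM Cfsg.Agent.Lib.Helper50UH90
  Cfsg.Agent.Lib.Helper50UOut Cfsg.Agent.Lib.Helper50UAut Cfsg.Agent.Lib.Helper50Aut
  Cfsg.Agent.Lib.Helper7SU Cfsg.Agent.Lib.Helper50Split

variable {F : Type*} [Field F] {q : ℕ} {n : ℕ}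

local notation "Mn" => Matrix (Fin n) (Fin n) F
local notation "AutU" => MulAut (Cfsg.PSU n F q)
local notation "πU" => (QuotientGroup.mk : Cfsg.SU n F q → Cfsg.PSU n F q)

theorem inndiag_eq : Cfsg.inndiagPSU n F q = (cU : Cfsg.GU n F q →* AutU).range := by
  unfold Cfsg.inndiagPSU Cfsg.autSubgroupOf
  have : {β : AutU | Cfsg.IsInnerDiagonalAutPSU β} = ((cU : Cfsg.GU n F q →* AutU).range : Set AutU) := by
    ext β
    rw [Set.mem_setOf_eq, isInnerDiagonal_iff]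
    constructor
    · rintro ⟨g, rfl⟩; exact ⟨g, rfl⟩
    · rintro ⟨g, rfl⟩; exact ⟨g, rfl⟩
  rw [this, Subgroup.closure_eq]

/-- partial norms in `GU` -/
noncomputable def NkGU (τ : F ≃+* F) (g : Cfsg.GU n F q) : ℕ → Cfsg.GU n F q
  | 0 => 1
  | k + 1 => g * mapGU τ (NkGU τ g k)

theorem NkGU_coe (τ : F ≃+* F) (g : Cfsg.GU n F q) (k : ℕ) :
    ((NkGU τ g k).1 : Mn) = NkM τ (g.1 : Mn) k := by
  induction k with
  | zero => rfl
  | succ k ih =>
    simp only [NkGU, NkM, Subgroup.coe_mul, Units.val_mul, mapGU_coe, ih]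

theorem pow_cU_fU (τ : F ≃+* F) (g : Cfsg.GU n F q) (k : ℕ) :
    (cU g * fU τ : AutU) ^ k = cU (NkGU τ g k) * fU τ ^ k := by
  induction k with
  | zero => simp [NkGU]
  | succ k ih =>
    rw [pow_succ', ih, NkGU, map_mul, pow_succ']
    calc cU g * fU τ * (cU (NkGU τ g k) * fU τ ^ k)
        = cU g * (fU τ * cU (NkGU τ g k)) * fU τ ^ k := by simp only [mul_assoc]
      _ = _ := by rw [fU_mul_cU]; simp only [mul_assoc]

theorem conj_of_twist_U (t : AutU) (g h h' : Cfsg.GU n F q) (ht : t * cU h = cU h' * t)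
    (hg : (cU g : AutU) = cU (h * h'⁻¹)) : cU g * t = cU h * t * (cU h : AutU)⁻¹ := by
  rw [hg, map_mul, map_inv]
  have : (cU h' : AutU)⁻¹ * t = t * (cU h)⁻¹ := by
    rw [inv_mul_eq_iff_eq_mul, ← mul_assoc, ← ht, mul_inv_cancel_right]
  rw [mul_assoc, this, mul_assoc]

lemma scU_coe (c : CC F q) : ((scU c : Cfsg.GU n F q).1 : Mn) = (c.1 : F) • (1 : Mn) :=
  coe_eq_smul_one _ _ (scU_mulVec c)

lemma cU_scU (c : CC F q) : (cU (scU c : Cfsg.GU n F q) : AutU) = 1 :=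
  cU_eq_one_of_scalar _ _ (scU_mulVec c)

section fin

variable [Fintype F] (hF : Fintype.card F = q ^ 2)

include hF in
theorem fU_injective (hn : 3 ≤ n) : Function.Injective (fU : (F ≃+* F) →* AutU) := by
  rw [injective_iff_map_eq_one]
  intro σ h
  refine (cU_mul_fU_eq_one hF hn 1 σ ?_).1
  rw [map_one, one_mul, h]

/-- an element of `GU` from a unitary matrix -/
noncomputable def mkU (M : Mn) (hM : IsU n F q M) : Cfsg.GU n F q := (guEquivIsU hF).symm ⟨M, hM⟩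

lemma mkU_coe (M : Mn) (hM : IsU n F q M) : ((mkU hF M hM).1 : Mn) = M := rfl

include hF in
lemma isU_coe (g : Cfsg.GU n F q) : IsU n F q (g.1 : Mn) := (mem_GU_iff hF g.1).1 g.2

variable {F₀ : Type*} [Field F₀] [Fintype F₀] {q₀ : ℕ} (hF₀ : Fintype.card F₀ = q₀ ^ 2)
  (j : F₀ →+* F) (hjq : ∀ x : F₀, j x ^ q = j (x ^ q₀))

include hF hF₀ hjq in
/-- field case -/
theorem field_conj_U (hn : 3 ≤ n) (τ : F ≃+* F) (r : ℕ) (hr : orderOf τ = r) (hr0 : 0 < r)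
    (hj : ∀ a, τ a = a ↔ a ∈ Set.range j)
    (g : Cfsg.GU n F q) (h1 : (cU g * fU τ : AutU) ^ r = 1) :
    ∃ h : Cfsg.GU n F q, (cU g * fU τ : AutU) = cU h * fU τ * (cU h)⁻¹ := by
  have hτr : τ ^ r = 1 := by rw [← hr]; exact pow_orderOf_eq_one τ
  rw [pow_cU_fU, ← map_pow, hτr, map_one, mul_one] at h1
  have h2 : NkGU τ g r ∈ (cU : Cfsg.GU n F q →* AutU).ker := h1
  rw [ker_cU hF hn] at h2
  obtain ⟨z, hz⟩ := h2
  have h3 : NkM τ (g.1 : Mn) r = (z.1 : F) • 1 := by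
    rw [← NkGU_coe, ← hz, scU_coe]
  -- `z` is fixed by `τ`
  have k1 : (g.1 : Mn) * (NkM τ (g.1 : Mn) r).map τ = NkM τ (g.1 : Mn) r * (g.1 : Mn).map (τ ^ r : F ≃+* F) :=
    NkM_succ' τ _ r
  have k2 : (g.1 : Mn).map (τ ^ r : F ≃+* F) = (g.1 : Mn) := by
    rw [hτr]; ext a b; rfl
  have k3 : ((z.1 : F) • (1 : Mn)).map τ = τ (z.1 : F) • 1 := by
    ext a b
    by_cases hab : a = b
    · subst hab; simp
    · simp [hab]
  rw [h3, k2, k3, mul_smul_comm, smul_mul_assoc, mul_one, one_mul] at k1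
  have hfix : τ (z.1 : F) = z.1 := by
    have h4 := congrArg (· * ((g.1⁻¹ : GL (Fin n) F) : Mn)) k1
    simp only [smul_mul_assoc, gl_mul_inv] at h4
    have h5 := congrFun (congrFun h4 ⟨0, by omega⟩) ⟨0, by omega⟩
    simpa using h5
  obtain ⟨l, hl1, hl⟩ := norm_surj_CC hF τ r hr hr0 hF₀ j hj hjq z.1 ((mem_CC z.1).1 z.2) hfix
  have hl0 : l ≠ 0 := by
    rintro rfl
    rw [zero_pow (by omega)] at hl1
    exact zero_ne_one hl1
  let lc : CC F q := ⟨Units.mk0 l hl0, (mem_CC _).2 hl1⟩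
  have h5 : NkM τ (l⁻¹ • (g.1 : Mn)) r = 1 := by
    rw [NkM_smul, h3, smul_smul]
    have : Nk τ l⁻¹ r * (z.1 : F) = 1 := by
      rw [← hl, ← Nk_mul, inv_mul_cancel₀ hl0, Nk_one]
    rw [this, one_smul]
  have h6 : (((scU lc⁻¹ * g : Cfsg.GU n F q)).1 : Mn) = l⁻¹ • (g.1 : Mn) := by
    rw [Subgroup.coe_mul, Units.val_mul, scU_coe, smul_mul_assoc, one_mul]
    simp [lc]
  have h7 : IsU n F q (l⁻¹ • (g.1 : Mn)) := by
    rw [← h6]; exact isU_coe hF _
  obtain ⟨h, hU, e⟩ := hilbert90_U hF τ r hr hr0 hF₀ j hj hjq _ h7 h5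
  let hh : Cfsg.GU n F q := mkU hF h hU
  refine ⟨hh, conj_of_twist_U _ g hh _ (fU_mul_cU τ hh) ?_⟩
  have h8 : scU lc⁻¹ * g * mapGU τ hh = hh := by
    apply Subtype.ext
    apply Units.ext
    rw [Subgroup.coe_mul, Units.val_mul, h6, mapGU_coe]
    exact e
  have h9 : hh * (mapGU τ hh)⁻¹ = scU lc⁻¹ * g := by
    exact mul_inv_eq_of_eq_mul h8.symm
  rw [h9, map_mul, cU_scU, one_mul]

end fin


theorem field_data [Fintype F] {p f r : ℕ} [Fact p.Prime] (hq : q = p ^ f)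
    (hF : Fintype.card F = q ^ 2) (τ : F ≃+* F) (hr : orderOf τ = r) (hodd : Odd r)
    (F₀ : Type*) [Field F₀] [Fintype F₀] (hF₀ : Fintype.card F₀ = p ^ (2 * (f / r))) :
    r ∣ f ∧ Fintype.card F₀ = (p ^ (f / r)) ^ 2 ∧ ∃ j : F₀ →+* F,
      (∀ a, τ a = a ↔ a ∈ Set.range j) ∧ ∀ x : F₀, j x ^ q = j (x ^ (p ^ (f / r))) := by
  have hF' : Fintype.card F = p ^ (2 * f) := by rw [hF, hq, ← pow_mul, mul_comm]
  obtain ⟨-, hcard⟩ := Cfsg.Agent.Lib.Helper50Out.ringAut_cyclic_card hF'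
  have h1 : r ∣ 2 * f := by
    rw [← hr, ← hcard]; exact orderOf_dvd_natCard τ
  have h2 : r ∣ f := (Nat.Coprime.dvd_of_dvd_mul_left (Nat.Coprime.symm (Nat.coprime_two_left.2 hodd)) h1)
  have h3 : Fintype.card F₀ = (p ^ (f / r)) ^ 2 := by rw [hF₀, ← pow_mul, mul_comm]
  obtain ⟨j, hj⟩ := Cfsg.Agent.Lib.Helper50Cent.exists_embedding hF' τ hr F₀
    (by rw [hF₀, Nat.mul_div_assoc 2 h2])
  refine ⟨h2, h3, j, hj, fun x => ?_⟩
  obtain ⟨k, hk⟩ := hodd
  have h4 : q = (p ^ (f / r)) ^ r := by rw [← pow_mul, Nat.div_mul_cancel h2, hq]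
  have h5 : x ^ q = x ^ (p ^ (f / r)) := by
    rw [h4]
    generalize p ^ (f / r) = q₀ at h3
    rw [hk, pow_succ, pow_mul q₀, ← h3, pow_mul x, FiniteField.pow_card_pow]
  rw [← map_pow, h5]

section cent

variable [Fintype F] (hF : Fintype.card F = q ^ 2)
  {F₀ : Type*} [Field F₀] [Fintype F₀] {q₀ : ℕ} (hF₀ : Fintype.card F₀ = q₀ ^ 2)
  (j : F₀ →+* F) (hjq : ∀ x : F₀, j x ^ q = j (x ^ q₀))

include hjq in
lemma isU_map_iff (A : Matrix (Fin n) (Fin n) F₀) : IsU n F q (A.map j) ↔ IsU n F₀ q₀ A := by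
  unfold IsU
  have h1 : (A.map j)ᵀ * (A.map j).map (fun x => x ^ q) = (Aᵀ * A.map (fun x => x ^ q₀)).map j := by
    rw [Matrix.map_mul]
    congr 1
    ext a b
    simp [hjq]
  rw [h1]
  constructor
  · intro h
    apply Matrix.map_injective j.injective
    show _ = (1 : Matrix (Fin n) (Fin n) F₀).map j
    rw [map_oneH]
    exact h
  · intro h
    rw [h, map_oneH]

/-- `GU_n(q₀) → GU_n(q)` -/
noncomputable def mapJ : Cfsg.GU n F₀ q₀ →* Cfsg.GU n F q where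
  toFun g := ⟨Matrix.GeneralLinearGroup.map j g.1, by
    rw [mem_GU_iff hF]
    exact (isU_map_iff j hjq _).2 ((mem_GU_iff hF₀ g.1).1 g.2)⟩
  map_one' := Subtype.ext (map_one _)
  map_mul' a b := Subtype.ext (map_mul _ _ _)

lemma mapJ_coe (g : Cfsg.GU n F₀ q₀) :
    ((mapJ hF hF₀ j hjq g).1 : Mn) = (g.1 : Matrix (Fin n) (Fin n) F₀).map j := rfl

lemma Nk_eq_one_of_map_eq (hn : 0 < n) (σ : F ≃+* F) (r : ℕ) (hσr : σ ^ r = 1)
    (g : GL (Fin n) F) (z : F) (e : (g : Mn).map σ = z • (g : Mn)) : Nk σ z r = 1 := by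
  have h1 : ∀ k, (g : Mn).map (σ ^ k : F ≃+* F) = Nk σ z k • (g : Mn) := by
    intro k
    induction k with
    | zero =>
      ext a b
      simp [Nk]
    | succ k ih =>
      have h2 : (g : Mn).map (σ ^ (k + 1) : F ≃+* F) = ((g : Mn).map (σ ^ k : F ≃+* F)).map σ := by
        ext a b
        exact pow_succ_apply σ k _
      rw [h2, ih]
      have h3 : (Nk σ z k • (g : Mn)).map σ = σ (Nk σ z k) • (g : Mn).map σ := by
        ext a b
        simp
      rw [h3, e, smul_smul, mul_comm]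
      rfl
  have h5 := h1 r
  rw [hσr] at h5
  have h6 : (g : Mn).map ((1 : F ≃+* F)) = (g : Mn) := by ext a b; rfl
  rw [h6] at h5
  have h7 := congrArg (· * ((g⁻¹ : GL (Fin n) F) : Mn)) h5
  simp only [smul_mul_assoc, gl_mul_inv] at h7
  have h8 := congrFun (congrFun h7 ⟨0, hn⟩) ⟨0, hn⟩
  simpa using h8.symm

theorem field_cent_char_U (hn : 3 ≤ n) (τ : F ≃+* F) (r : ℕ) (hr : orderOf τ = r) (hr0 : 0 < r)
    (hj : ∀ a, τ a = a ↔ a ∈ Set.range j) (g : Cfsg.GU n F q) :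
    cU g ∈ Subgroup.centralizer {(fU τ : AutU)} ↔
      ∃ (μ : CC F q) (h : Cfsg.GU n F₀ q₀), scU μ * g = mapJ hF hF₀ j hjq h := by
  have hτr : τ ^ r = 1 := by rw [← hr]; exact pow_orderOf_eq_one τ
  rw [Subgroup.mem_centralizer_singleton_iff]
  constructor
  · intro h
    have h1 : (cU g : AutU) = cU (mapGU τ g) := mul_right_cancel (h.trans (fU_mul_cU τ g))
    have h2 : mapGU τ g * g⁻¹ ∈ (cU : Cfsg.GU n F q →* AutU).ker := by
      rw [MonoidHom.mem_ker, map_mul, map_inv, ← h1, mul_inv_cancel]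
    rw [ker_cU hF hn] at h2
    obtain ⟨z, hz⟩ := h2
    have h3 : mapGU τ g = scU z * g := by rw [hz, inv_mul_cancel_right]
    have e : (g.1 : Mn).map τ = (z.1 : F) • (g.1 : Mn) := by
      rw [← mapGU_coe, h3, Subgroup.coe_mul, Units.val_mul, scU_coe, smul_mul_assoc, one_mul]
    have h4 := Nk_eq_one_of_map_eq (by omega) τ r hτr g.1 _ e
    obtain ⟨μ, hμ, e2⟩ := hilbert90_CC hF τ r hr hr0 hF₀ j hj hjq _ ((mem_CC z.1).1 z.2) h4
    have hμ0 : μ ≠ 0 := by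
      rintro rfl
      rw [zero_pow (by omega)] at hμ
      exact zero_ne_one hμ
    let μc : CC F q := ⟨Units.mk0 μ hμ0, (mem_CC _).2 hμ⟩
    have h6 : (((scU μc * g : Cfsg.GU n F q)).1 : Mn) = μ • (g.1 : Mn) := by
      rw [Subgroup.coe_mul, Units.val_mul, scU_coe, smul_mul_assoc, one_mul]
      rfl
    have h9 : (μ • (g.1 : Mn)).map τ = μ • (g.1 : Mn) := by
      have : (μ • (g.1 : Mn)).map τ = τ μ • (g.1 : Mn).map τ := by
        ext a b
        simp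
      rw [this, e, smul_smul, mul_comm, e2]
    obtain ⟨A, hA⟩ := descend τ j hj _ h9
    have hAU : IsU n F₀ q₀ A := by
      rw [← isU_map_iff j hjq, hA, ← h6]
      exact isU_coe hF _
    refine ⟨μc, mkU hF₀ A hAU, ?_⟩
    apply Subtype.ext
    apply Units.ext
    rw [h6, mapJ_coe, mkU_coe, hA]
  · rintro ⟨μ, h, e⟩
    have h1 : (cU g : AutU) = cU (mapJ hF hF₀ j hjq h) := by
      rw [← e, map_mul, cU_scU, one_mul]
    have h2 : mapGU τ (mapJ hF hF₀ j hjq h) = mapJ hF hF₀ j hjq h := by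
      apply Subtype.ext
      apply Units.ext
      rw [mapGU_coe, mapJ_coe, map_j_fixed τ j hj]
    rw [h1, fU_mul_cU, h2]

lemma mapJ_mem_range_scU_iff (hn : 0 < n) (h : Cfsg.GU n F₀ q₀) :
    mapJ hF hF₀ j hjq h ∈ (scU : CC F q →* Cfsg.GU n F q).range ↔
      h ∈ (Cfsg.Geo.scalars (Fin n) F₀).subgroupOf (Cfsg.GU n F₀ q₀) := by
  rw [Subgroup.mem_subgroupOf, Cfsg.Geo.mem_scalars_iff]
  constructor
  · rintro ⟨z, hz⟩
    have e : ∀ a b, ((z.1 : F) • (1 : Mn)) a b = j ((h.1 : Matrix (Fin n) (Fin n) F₀) a b) := by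
      intro a b
      rw [← scU_coe, hz, mapJ_coe]
      rfl
    have h00 : (h.1 : Matrix (Fin n) (Fin n) F₀) ⟨0, hn⟩ ⟨0, hn⟩ ≠ 0 := by
      intro h0
      have := e ⟨0, hn⟩ ⟨0, hn⟩
      rw [h0, map_zero] at this
      simp at this
    refine ⟨Units.mk0 _ h00, ?_⟩
    ext a b
    apply j.injective
    rw [← e]
    by_cases hab : a = b
    · subst hab
      have := e ⟨0, hn⟩ ⟨0, hn⟩
      simp only [Matrix.smul_apply, Matrix.one_apply_eq, smul_eq_mul, mul_one, Units.val_mk0] at this ⊢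
      exact this
    · simp [Matrix.one_apply_ne hab]
  · rintro ⟨w, hw⟩
    have hU := isU_coe hF₀ h
    have hw1 : (w : F₀) ^ (q₀ + 1) = 1 := by
      have h1 := congrFun (congrFun hU ⟨0, hn⟩) ⟨0, hn⟩
      rw [hw, Matrix.mul_apply, Finset.sum_eq_single ⟨0, hn⟩] at h1
      · simp only [Matrix.transpose_apply, Matrix.smul_apply, Matrix.one_apply_eq, smul_eq_mul,
          mul_one, Matrix.map_apply] at h1
        rw [pow_succ', h1]
      · intro b _ hb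
        simp [Matrix.one_apply_ne hb]
      · simp
    have hjw : (j (w : F₀)) ^ (q + 1) = 1 := by
      rw [pow_succ, hjq, ← map_mul, ← pow_succ, hw1, map_one]
    refine ⟨⟨Units.map (j : F₀ →* F) w, (mem_CC _).2 hjw⟩, ?_⟩
    apply Subtype.ext
    apply Units.ext
    rw [scU_coe, mapJ_coe, hw]
    ext a b
    by_cases hab : a = b
    · subst hab; simp
    · simp [Matrix.one_apply_ne hab]

include hF hF₀ hjq in
theorem field_centralizer_equiv_U (hn : 3 ≤ n) (τ : F ≃+* F) (r : ℕ) (hr : orderOf τ = r)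
    (hr0 : 0 < r) (hj : ∀ a, τ a = a ↔ a ∈ Set.range j) :
    Nonempty (↥((cU : Cfsg.GU n F q →* AutU).range ⊓ Subgroup.centralizer {(fU τ : AutU)})
      ≃* Cfsg.PGU n F₀ q₀) := by
  let Ψ : Cfsg.GU n F₀ q₀ →* AutU := cU.comp (mapJ hF hF₀ j hjq)
  have hrange : Ψ.range = (cU : Cfsg.GU n F q →* AutU).range ⊓ Subgroup.centralizer {(fU τ : AutU)} := by
    ext y
    constructor
    · rintro ⟨h, rfl⟩
      refine ⟨⟨_, rfl⟩, ?_⟩
      show cU _ ∈ Subgroup.centralizer _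
      rw [field_cent_char_U hF hF₀ j hjq hn τ r hr hr0 hj]
      exact ⟨1, h, by rw [map_one, one_mul]⟩
    · rintro ⟨⟨g, rfl⟩, hg⟩
      obtain ⟨μ, h, e⟩ := (field_cent_char_U hF hF₀ j hjq hn τ r hr hr0 hj g).1 hg
      refine ⟨h, ?_⟩
      show cU (mapJ hF hF₀ j hjq h) = cU g
      rw [← e, map_mul, cU_scU, one_mul]
  have hker : Ψ.ker = (Cfsg.Geo.scalars (Fin n) F₀).subgroupOf (Cfsg.GU n F₀ q₀) := by
    ext h
    rw [MonoidHom.mem_ker, ← mapJ_mem_range_scU_iff hF hF₀ j hjq (by omega) h, ← ker_cU hF hn,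
      MonoidHom.mem_ker]
    rfl
  exact ⟨(((QuotientGroup.quotientMulEquivOfEq hker.symm).trans
    (QuotientGroup.quotientKerEquivRange Ψ)).trans (MulEquiv.subgroupCongr hrange)).symm⟩

end cent


theorem inn_le_range_U : Cfsg.Inn (Cfsg.PSU n F q) ≤ (cU : Cfsg.GU n F q →* AutU).range := by
  rintro _ ⟨x, rfl⟩
  obtain ⟨s, rfl⟩ := QuotientGroup.mk_surjective x
  exact ⟨_, cU_toGU s⟩

section split

variable [Fintype F] (hF : Fintype.card F = q ^ 2)

/-- the class splitting number in terms of determinants of the centraliser -/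
theorem split_count_U (hn : 3 ≤ n) (t : AutU) (E : Subgroup (CC F q))
    (hE : ∀ g : Cfsg.GU n F q, cU g ∈ Subgroup.centralizer {t} →
      DU hF (by omega) g ∈ (powMonoidHom n : CC F q →* CC F q).range ⊔ E)
    (hE' : ∀ a ∈ E, ∃ g : Cfsg.GU n F q, cU g ∈ Subgroup.centralizer {t} ∧ DU hF (by omega) g = a) :
    Cfsg.splitClassCount (Cfsg.inndiagPSU n F q) (Cfsg.Inn (Cfsg.PSU n F q)) t
      = Nat.gcd n E.index := by
  have hn1 : 1 ≤ n := by omega
  rw [inndiag_eq, splitClassCount_eq _ _ inn_le_range_U, ← Subgroup.index_comap]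
  have hdet := DU_surjective (n := n) hF hn1
  have key : (Cfsg.Inn (Cfsg.PSU n F q) ⊔
      ((cU : Cfsg.GU n F q →* AutU).range ⊓ Subgroup.centralizer {t})).comap cU
      = ((powMonoidHom n : CC F q →* CC F q).range ⊔ E).comap (DU hF hn1) := by
    ext g
    rw [Subgroup.mem_comap, Subgroup.mem_comap, Subgroup.mem_sup_of_normal_left]
    constructor
    · rintro ⟨i, hi, c, ⟨⟨g₂, rfl⟩, hc⟩, e⟩
      have h1 : cU (g * g₂⁻¹) = i := by
        rw [map_mul, map_inv, ← e, mul_inv_cancel_right]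
      rw [← h1, cU_mem_inn_iff hF hn] at hi
      have h2 : DU hF hn1 g = DU hF hn1 (g * g₂⁻¹) * DU hF hn1 g₂ := by
        rw [← map_mul, inv_mul_cancel_right]
      rw [h2]
      exact mul_mem (Subgroup.mem_sup_left hi) (hE g₂ hc)
    · intro h
      obtain ⟨a, ha, b, hb, e⟩ := Subgroup.mem_sup.1 h
      obtain ⟨g₂, hg₂, rfl⟩ := hE' b hb
      refine ⟨cU (g * g₂⁻¹), ?_, cU g₂, ⟨⟨g₂, rfl⟩, hg₂⟩, ?_⟩
      · rw [cU_mem_inn_iff hF hn, map_mul, map_inv, ← e, mul_inv_cancel_right]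
        exact ha
      · rw [← map_mul, inv_mul_cancel_right]
  rw [key, Subgroup.index_comap_of_surjective _ hdet, index_range_pow_sup]

variable {F₀ : Type*} [Field F₀] [Fintype F₀] {q₀ : ℕ} (hF₀ : Fintype.card F₀ = q₀ ^ 2)
  (j : F₀ →+* F) (hjq : ∀ x : F₀, j x ^ q = j (x ^ q₀))

/-- the embedding of norm one groups -/
def jCC : CC F₀ q₀ →* CC F q where
  toFun c := ⟨Units.map (j : F₀ →* F) c.1, by
    rw [mem_CC]
    show (j (c.1 : F₀)) ^ (q + 1) = 1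
    rw [pow_succ, hjq, ← map_mul, ← pow_succ, (mem_CC c.1).1 c.2, map_one]⟩
  map_one' := Subtype.ext (map_one _)
  map_mul' a b := Subtype.ext (map_mul _ _ _)

lemma jCC_injective : Function.Injective (jCC j hjq) := by
  intro a b e
  have h1 : Units.map (j : F₀ →* F) a.1 = Units.map (j : F₀ →* F) b.1 := congrArg Subtype.val e
  exact Subtype.ext (Units.map_injective j.injective h1)

lemma DU_mapJ (hn : 1 ≤ n) (h : Cfsg.GU n F₀ q₀) :
    DU hF hn (mapJ hF hF₀ j hjq h) = jCC j hjq (DU hF₀ hn h) := by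
  apply Subtype.ext
  exact Matrix.GeneralLinearGroup.map_det j h.1

lemma DU_scU (hn : 1 ≤ n) (c : CC F q) : DU hF hn (scU c : Cfsg.GU n F q) = c ^ n := by
  apply Subtype.ext
  exact detGU_scU c

include hF hF₀ hjq in
theorem field_split_count_U (hn : 3 ≤ n) (τ : F ≃+* F) (r : ℕ)
    (hr : orderOf τ = r) (hr0 : 0 < r) (hj : ∀ a, τ a = a ↔ a ∈ Set.range j) :
    Cfsg.splitClassCount (Cfsg.inndiagPSU n F q) (Cfsg.Inn (Cfsg.PSU n F q))
      (fU τ) = Nat.gcd n ((q + 1) / (q₀ + 1)) := by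
  have hn1 : 1 ≤ n := by omega
  rw [split_count_U hF hn (fU τ) (jCC j hjq).range]
  · congr 1
    have h1 := Subgroup.card_mul_index (jCC j hjq).range
    rw [Nat.card_congr (MonoidHom.ofInjective (jCC_injective j hjq)).symm.toEquiv, card_CC hF,
      card_CC hF₀] at h1
    rw [← h1, Nat.mul_div_cancel_left _ (Nat.succ_pos _)]
  · intro g hg
    obtain ⟨μ, h, e⟩ := (field_cent_char_U hF hF₀ j hjq hn τ r hr hr0 hj g).1 hg
    have e1 := congrArg (DU hF hn1) e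
    rw [map_mul, DU_scU, DU_mapJ] at e1
    have e2 : DU hF hn1 g = (μ⁻¹) ^ n * jCC j hjq (DU hF₀ hn1 h) := by
      rw [← e1, inv_pow, inv_mul_cancel_left]
    rw [e2]
    exact Subgroup.mul_mem_sup ⟨μ⁻¹, rfl⟩ ⟨_, rfl⟩
  · rintro _ ⟨b, rfl⟩
    obtain ⟨h, rfl⟩ := DU_surjective (n := n) hF₀ hn1 b
    refine ⟨mapJ hF hF₀ j hjq h, ?_, DU_mapJ hF hF₀ j hjq hn1 h⟩
    rw [field_cent_char_U hF hF₀ j hjq hn τ r hr hr0 hj]
    exact ⟨1, h, by rw [map_one, one_mul]⟩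

end split

end Cfsg.Agent.Lib.Helper50UTw
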