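import Mathlib
import Cfsg.Prelude
import Cfsg.Agent.Lib.Helper42LBDefs
import Cfsg.Agent.Lib.Helper50UAut
import Cfsg.Agent.Lib.Helper50UOut
import Cfsg.Agent.Lib.Helper50UTw

set_option autoImplicit false

/-! Vocabulary for project 42, part 2 = local balance for `PSU_n` (S2687) (helper42). -/

namespace Cfsg.Agent.Lib.Helper42LBUDefs

open Matrix Cfsg Cfsg.Agent.Lib.Helper50Aut Cfsg.Agent.Lib.Helper50UAut
  Cfsg.Agent.Lib.Helper42BalA Cfsg.Agent.Lib.Helper42LBDefs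

variable {F : Type*} [Field F] {n : ℕ} {q : ℕ}

local notation "SLn" => Matrix.SpecialLinearGroup (Fin n) F
local notation "Mn" => Matrix (Fin n) (Fin n) F
local notation "AutU" => MulAut (Cfsg.PSU n F q)
local notation "πU" => (QuotientGroup.mk : Cfsg.SU n F q → Cfsg.PSU n F q)

/-- The four hypotheses of the abstract local-balance argument, for a subgroup `S` of `SU_n`
(mapped to `PSU_n` by `πU`) and an automorphism `φ` of `PSU_n`. -/
structure BalU (p : ℕ) (S : Subgroup ↥(Cfsg.SU n F q)) (φ : AutU) : Prop where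
  H2 : ∀ s ∈ S, φ (πU s) = πU s
  H3 : ∀ N : Subgroup ↥S, N.Normal →
    (∀ x ∈ N, πU (x : ↥(Cfsg.SU n F q)) = 1) ∨ ∃ t ∈ N, orderOf (πU (t : ↥(Cfsg.SU n F q))) = p
  H4 : ∀ k, φ k = k → ∀ s ∈ S, ∃ t ∈ S, k * πU s * k⁻¹ * (πU s)⁻¹ = πU t
  H5 : ∀ β : AutU, (∀ s ∈ S, β (πU s) = πU s) → β ^ p = 1

/-- `s₀ ↦ P j(s₀) P⁻¹`, from `SL_n(F₀)` to `SL_n(F)` -/
noncomputable def embS {F₀ : Type*} [Field F₀] (j : F₀ →+* F) (P : GL (Fin n) F) :
    Matrix.SpecialLinearGroup (Fin n) F₀ →* SLn :=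
  (conjGL P).toMonoidHom.comp (Matrix.SpecialLinearGroup.map j)

theorem embS_coe {F₀ : Type*} [Field F₀] (j : F₀ →+* F) (P : GL (Fin n) F)
    (s : Matrix.SpecialLinearGroup (Fin n) F₀) :
    (embS j P s : Mn) = (P : Mn) * (s : Matrix (Fin n) (Fin n) F₀).map j
      * ((P⁻¹ : GL (Fin n) F) : Mn) := rfl

/-- the image of `S₀ ≤ SL_n(F₀)` under `embS`, intersected with `SU_n`, as a subgroup of `SU_n` -/
noncomputable def imU {F₀ : Type*} [Field F₀] (q : ℕ) (j : F₀ →+* F) (P : GL (Fin n) F)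
    (S₀ : Subgroup (Matrix.SpecialLinearGroup (Fin n) F₀)) : Subgroup ↥(Cfsg.SU n F q) :=
  (S₀.map (embS j P)).subgroupOf (Cfsg.SU n F q)

theorem mem_imU {F₀ : Type*} [Field F₀] {j : F₀ →+* F} {P : GL (Fin n) F}
    {S₀ : Subgroup (Matrix.SpecialLinearGroup (Fin n) F₀)} {s : ↥(Cfsg.SU n F q)} :
    s ∈ imU q j P S₀ ↔ ∃ s₀ ∈ S₀, embS j P s₀ = (s : SLn) := by
  unfold imU
  rw [Subgroup.mem_subgroupOf, Subgroup.mem_map]

/-- The abstract argument: `O_{p'}(C_A(φ)) = 1` and `p` divides the number of fixed points. -/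
theorem BalU.core [Finite F] {p : ℕ} [Fact p.Prime] {S : Subgroup ↥(Cfsg.SU n F q)} {φ : AutU}
    (B : BalU p S φ)
    (H1 : Function.Injective (MulAut.conj : Cfsg.PSU n F q →* AutU))
    (hne : ∃ s ∈ S, πU s ≠ 1)
    (A : Subgroup AutU) (hinn : ∀ k, MulAut.conj k ∈ A) :
    pPrimeCore p ↥(A ⊓ Subgroup.centralizer {φ}) = ⊥ ∧
      ¬ Nat.Coprime p (Nat.card ↥(MonoidHom.eqLocus φ.toMonoidHom
        (MonoidHom.id (Cfsg.PSU n F q)))) := by
  classical
  have hfin : Finite (Cfsg.PSU n F q) := by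
    have : Fintype F := Fintype.ofFinite F
    have : Finite SLn := Finite.of_injective (fun s : SLn => (s : Mn)) Subtype.val_injective
    exact Quotient.finite _
  let lam : ↥S →* Cfsg.PSU n F q :=
    (QuotientGroup.mk' (Subgroup.center ↥(Cfsg.SU n F q))).comp S.subtype
  constructor
  · apply core_eq_bot lam φ p H1
    · intro s; exact B.H2 s s.2
    · intro N hN
      rcases B.H3 N hN with h | ⟨t, ht, ho⟩
      · left; intro x hx; exact h x hx
      · right; exact ⟨t, ht, ho⟩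
    · intro k hk s
      obtain ⟨t, ht, e⟩ := B.H4 k hk s s.2
      exact ⟨⟨t, ht⟩, e⟩
    · intro β hβ
      exact B.H5 β (fun s hs => hβ ⟨s, hs⟩)
    · exact hinn
  · rcases B.H3 ⊤ inferInstance with h | ⟨t, -, ho⟩
    · obtain ⟨s, hs, hs1⟩ := hne
      exact absurd (h ⟨s, hs⟩ trivial) hs1
    · intro hc
      have hmem : πU (t : ↥(Cfsg.SU n F q)) ∈ MonoidHom.eqLocus φ.toMonoidHom
          (MonoidHom.id (Cfsg.PSU n F q)) := B.H2 t t.2
      have h1 : orderOf (⟨πU (t : ↥(Cfsg.SU n F q)), hmem⟩ : ↥(MonoidHom.eqLocus φ.toMonoidHom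
          (MonoidHom.id (Cfsg.PSU n F q)))) = p := by
        rw [← ho]
        exact (Subgroup.orderOf_mk _ _)
      have h2 := orderOf_dvd_natCard (⟨πU (t : ↥(Cfsg.SU n F q)), hmem⟩ :
        ↥(MonoidHom.eqLocus φ.toMonoidHom (MonoidHom.id (Cfsg.PSU n F q))))
      rw [h1] at h2
      have h3 : p ∣ Nat.gcd p (Nat.card ↥(MonoidHom.eqLocus φ.toMonoidHom
          (MonoidHom.id (Cfsg.PSU n F q)))) :=
        Nat.dvd_gcd dvd_rfl h2
      rw [hc] at h3
      exact (Fact.out : p.Prime).one_lt.ne' (Nat.dvd_one.1 h3)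

end Cfsg.Agent.Lib.Helper42LBUDefs
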