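import Mathlib
import Cfsg.Prelude
import Cfsg.Agent.Lib.Helper42LBDefs
import Cfsg.Agent.Lib.Helper73LBS2

set_option autoImplicit false
set_option linter.unusedSectionVars false

/-! PROJECT 42, piece S2 (general form): semilinear maps commuting projectively with the image of a
symplectic group over a subfield. -/

namespace Cfsg.Agent.Lib.Helper95LBS2gen

open Matrix Cfsg Cfsg.Agent.Lib.Helper50Aut Cfsg.Agent.Lib.Helper50AutStr
  Cfsg.Agent.Lib.Helper42BalA Cfsg.Agent.Lib.Helper49EichGen Cfsg.Agent.Lib.Helper42LBDefs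
  Cfsg.Agent.Lib.Helper50Tv Cfsg.Agent.Lib.Helper73LBS2

variable {F : Type*} [Field F] [Fintype F] {n : ℕ}

local notation "SLn" => Matrix.SpecialLinearGroup (Fin n) F
local notation "Mn" => Matrix (Fin n) (Fin n) F

lemma map_one_add_vecMulVec {R S : Type*} [Semiring R] [Semiring S] (f : R →+* S)
    (a b : Fin n → R) :
    (1 + vecMulVec a b).map f = 1 + vecMulVec (f ∘ a) (f ∘ b) := by
  ext i k
  simp only [Matrix.map_apply, Matrix.add_apply, Matrix.one_apply, Matrix.vecMulVec_apply, map_add,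
    map_mul, Function.comp]
  split_ifs <;> simp

lemma dot_comp {R S : Type*} [Semiring R] [Semiring S] (f : R →+* S) (a b : Fin n → R) :
    (f ∘ a) ⬝ᵥ (f ∘ b) = f (a ⬝ᵥ b) := by
  simp [dotProduct, map_sum]

theorem line_fixed_gen {F₀ : Type*} [Field F₀] [Fintype F₀] (j : F₀ →+* F)
    (h2 : (2 : F₀) ≠ 0) (g₀ : GL (Fin n) F₀)
    (hg₀ : (g₀ : Matrix (Fin n) (Fin n) F₀)ᵀ = -(g₀ : Matrix (Fin n) (Fin n) F₀))
    (h : GL (Fin n) F) (τ : F ≃+* F)
    (hc : ∀ s ∈ isoS (g₀ : Matrix (Fin n) (Fin n) F₀), ∃ z : F,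
      (h : Mn) * ((s : Matrix (Fin n) (Fin n) F₀).map j).map τ
        = z • ((s : Matrix (Fin n) (Fin n) F₀).map j * (h : Mn))) (y : Fin n → F₀) :
    ∃ c : F, (j ∘ y) ᵥ* (h : Mn) = c • (τ ∘ (j ∘ y)) := by
  by_cases hy : y = 0
  · refine ⟨0, ?_⟩
    rw [hy, zero_smul]
    have : (j ∘ (0 : Fin n → F₀)) = 0 := by funext i; simp
    rw [this, Matrix.zero_vecMul]
  obtain ⟨z, E⟩ := hc _ (sy_mem h2 (g₀ : Matrix (Fin n) (Fin n) F₀) hg₀ y)
  have hcoe : (sy h2 (g₀ : Matrix (Fin n) (Fin n) F₀) hg₀ y : Matrix (Fin n) (Fin n) F₀)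
      = 1 + vecMulVec ((g₀ : Matrix (Fin n) (Fin n) F₀) *ᵥ y) y := rfl
  set u₀ : Fin n → F₀ := (g₀ : Matrix (Fin n) (Fin n) F₀) *ᵥ y with hu₀
  have hu₀0 : u₀ ≠ 0 := mulVec_ne_zero g₀ hy
  have hdot₀ : y ⬝ᵥ u₀ = 0 := dot_skew h2 _ hg₀ y
  set u : Fin n → F := j ∘ u₀ with hu
  set φ : Fin n → F := j ∘ y with hφ
  have hdot : φ ⬝ᵥ u = 0 := by rw [hφ, hu, dot_comp, hdot₀, map_zero]
  have hdot' : (τ ∘ φ) ⬝ᵥ (τ ∘ u) = 0 := by
    have := dot_comp (τ : F →+* F) φ u
    rw [hdot, map_zero] at this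
    exact this
  have hτm : (1 + vecMulVec u φ).map τ = 1 + vecMulVec (τ ∘ u) (τ ∘ φ) :=
    map_one_add_vecMulVec (τ : F →+* F) u φ
  rw [hcoe, map_one_add_vecMulVec j, ← hu, ← hφ, hτm, mul_add, mul_one, add_mul, one_mul,
    Matrix.mul_vecMulVec, Matrix.vecMulVec_mul] at E
  obtain ⟨k, hk⟩ : ∃ k, u k ≠ 0 := by
    by_contra hcon
    push Not at hcon
    apply hu₀0
    funext i
    have := hcon i
    simp only [hu, Function.comp] at this
    exact (map_eq_zero j).1 this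
  have hτu : τ ∘ u ≠ 0 := by
    intro h0
    have := congrFun h0 k
    simp only [Function.comp, Pi.zero_apply] at this
    exact hk ((map_eq_zero τ).1 this)
  set w : Fin n → F := (h : Mn) *ᵥ (τ ∘ u) with hw
  have hw0 : w ≠ 0 := mulVec_ne_zero h hτu
  -- apply `E` to the vector `τ ∘ u`
  have E1 : w = z • (w + (φ ⬝ᵥ w) • u) := by
    have := congrArg (fun M : Mn => M *ᵥ (τ ∘ u)) E
    simp only [Matrix.add_mulVec, Matrix.smul_mulVec, Matrix.vecMulVec_mulVec, hdot'] at this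
    rw [← hw, ← Matrix.dotProduct_mulVec, ← hw] at this
    simpa using this
  have hz : z = 1 := by
    by_contra hz1
    have E2 : φ ⬝ᵥ w = z * (φ ⬝ᵥ w) := by
      have := congrArg (fun v => φ ⬝ᵥ v) E1
      simp only [dotProduct_smul, dotProduct_add, hdot, smul_eq_mul, mul_zero, add_zero] at this
      exact this
    have E3 : φ ⬝ᵥ w = 0 := by
      have h3 : (1 - z) * (φ ⬝ᵥ w) = 0 := by linear_combination E2
      rcases mul_eq_zero.1 h3 with h4 | h4
      · exact absurd (sub_eq_zero.1 h4).symm hz1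
      · exact h4
    rw [E3, zero_smul, add_zero] at E1
    have h5 : (1 - z) • w = 0 := by rw [sub_smul, one_smul, ← E1, sub_self]
    rcases smul_eq_zero.1 h5 with h4 | h4
    · exact hz1 (sub_eq_zero.1 h4).symm
    · exact hw0 h4
  rw [hz, one_smul, add_right_inj] at E
  refine ⟨w k / u k, ?_⟩
  funext l
  have := congrFun (congrFun E k) l
  rw [Matrix.vecMulVec_apply, Matrix.vecMulVec_apply] at this
  rw [Pi.smul_apply, smul_eq_mul, div_mul_eq_mul_div, this, mul_div_cancel_left₀ _ hk]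

/-- piece S2 (general form) -/
theorem symp_core_gen {F₀ : Type*} [Field F₀] [Fintype F₀] (j : F₀ →+* F) (hn : 2 ≤ n)
    (h2 : (2 : F₀) ≠ 0) (g₀ : GL (Fin n) F₀)
    (hg₀ : (g₀ : Matrix (Fin n) (Fin n) F₀)ᵀ = -(g₀ : Matrix (Fin n) (Fin n) F₀))
    (h : GL (Fin n) F) (τ : F ≃+* F)
    (hc : ∀ s ∈ isoS (g₀ : Matrix (Fin n) (Fin n) F₀), ∃ z : F,
      (h : Mn) * ((s : Matrix (Fin n) (Fin n) F₀).map j).map τ
        = z • ((s : Matrix (Fin n) (Fin n) F₀).map j * (h : Mn))) :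
    (∃ c : F, (h : Mn) = c • (1 : Mn)) ∧ ∀ a : F₀, τ (j a) = j a := by
  have L := line_fixed_gen j h2 g₀ hg₀ h τ hc
  have hsingle : ∀ (i : Fin n) (b : F₀), (j ∘ (Pi.single i b : Fin n → F₀)) = Pi.single i (j b) := by
    intro i b
    funext l
    by_cases hl : l = i
    · subst hl; simp
    · simp [Pi.single_eq_of_ne hl]
  have hsingle' : ∀ (i : Fin n) (b : F), (τ ∘ (Pi.single i b : Fin n → F)) = Pi.single i (τ b) := by
    intro i b
    funext l
    by_cases hl : l = i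
    · subst hl; simp
    · simp [Pi.single_eq_of_ne hl]
  have hoff : ∀ i k : Fin n, i ≠ k → (h : Mn) i k = 0 := by
    intro i k hik
    obtain ⟨c, hc'⟩ := L (Pi.single i 1)
    have := congrFun hc' k
    rw [hsingle, map_one, Matrix.single_one_vecMul, hsingle', Pi.smul_apply,
      Pi.single_eq_of_ne hik.symm] at this
    simpa using this
  have hrel : ∀ i k : Fin n, i ≠ k → ∀ b : F₀, j b * (h : Mn) k k = (h : Mn) i i * τ (j b) := by
    intro i k hik b
    obtain ⟨c, hc'⟩ := L (Pi.single i 1 + Pi.single k b)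
    have hjv : (j ∘ (Pi.single i 1 + Pi.single k b : Fin n → F₀))
        = Pi.single i 1 + Pi.single k (j b) := by
      rw [← map_one j, ← hsingle, ← hsingle]
      funext l
      simp
    rw [hjv] at hc'
    have hv : ∀ l, ((Pi.single i 1 + Pi.single k (j b) : Fin n → F) ᵥ* (h : Mn)) l =
        (h : Mn) i l + j b * (h : Mn) k l := by
      intro l
      rw [Matrix.add_vecMul, Pi.add_apply, Matrix.single_one_vecMul, Matrix.single_vecMul]
      rfl
    have hi := congrFun hc' i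
    have hk := congrFun hc' k
    rw [hv, hoff k i hik.symm] at hi
    rw [hv, hoff i k hik] at hk
    simp only [Pi.smul_apply, Function.comp, Pi.add_apply, Pi.single_eq_same,
      Pi.single_eq_of_ne hik, Pi.single_eq_of_ne hik.symm, smul_eq_mul, mul_zero, add_zero, zero_add,
      map_one, mul_one] at hi hk
    rw [hk, hi]
  let i0 : Fin n := ⟨0, by omega⟩
  let i1 : Fin n := ⟨1, by omega⟩
  have h01 : i0 ≠ i1 := by simp [i0, i1]
  have hdiag : ∀ k : Fin n, (h : Mn) k k = (h : Mn) i0 i0 := by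
    intro k
    by_cases hk : i0 = k
    · rw [← hk]
    · have := hrel i0 k hk 1
      rwa [map_one, one_mul, map_one, mul_one] at this
  have hsc : (h : Mn) = (h : Mn) i0 i0 • (1 : Mn) := by
    ext i k
    by_cases hik : i = k
    · subst hik
      rw [hdiag i]
      simp
    · rw [hoff i k hik]
      simp [hik]
  have hz0 : (h : Mn) i0 i0 ≠ 0 := by
    intro h0
    have h1 := gl_mul_inv h
    rw [hsc, h0, zero_smul, zero_mul] at h1
    have := congrFun (congrFun h1 i0) i0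
    simp at this
  refine ⟨⟨_, hsc⟩, fun b => ?_⟩
  have := hrel i0 i1 h01 b
  rw [hdiag i1, mul_comm] at this
  exact (mul_left_cancel₀ hz0 this).symm

end Cfsg.Agent.Lib.Helper95LBS2gen
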