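import Mathlib
import Cfsg.Prelude
import Cfsg.Agent.Lib.Helper42LBDefs
import Cfsg.Agent.Lib.Helper67LBU3
import Cfsg.Agent.Lib.Helper95LBS2gen

set_option autoImplicit false
set_option linter.unusedSectionVars false

/-! PROJECT 42, piece W5: general form of U3. -/

namespace Cfsg.Agent.Lib.Helper42LBW5

open Matrix Cfsg Cfsg.Agent.Lib.Helper50Aut Cfsg.Agent.Lib.Helper50AutStr
  Cfsg.Agent.Lib.Helper42BalA Cfsg.Agent.Lib.Helper49EichGen Cfsg.Agent.Lib.Helper42LBDefs
  Cfsg.Agent.Lib.Helper50Tv Cfsg.Agent.Lib.Helper50Str Cfsg.Agent.Lib.Helper13UDefs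
  Cfsg.Agent.Lib.Helper97UBase Cfsg.Agent.Lib.Helper95Herm Cfsg.Agent.Lib.Helper67LBU3
  Cfsg.Agent.Lib.Helper95LBS2gen Cfsg.Agent.Lib.Helper73LBS2

variable {F : Type*} [Field F] [Fintype F] {n : ℕ}
variable {F₀ : Type*} [Field F₀] [Fintype F₀]

local notation "Mn" => Matrix (Fin n) (Fin n) F
local notation "M0" => Matrix (Fin n) (Fin n) F₀

/-- a transvection over `F₀` whose image commutes projectively with `(h, τ)` -/
theorem tv_line (jj : F₀ →+* F) (h : GL (Fin n) F) (τ : F ≃+* F) (u₀ φ₀ : Fin n → F₀)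
    (hdot₀ : φ₀ ⬝ᵥ u₀ = 0) (hu₀0 : u₀ ≠ 0) (hφ₀0 : φ₀ ≠ 0) (z : F)
    (E : (h : Mn) * (((1 + vecMulVec u₀ φ₀ : M0)).map jj).map τ
        = z • ((1 + vecMulVec u₀ φ₀ : M0).map jj * (h : Mn))) :
    ∃ c : F, (h : Mn) *ᵥ (τ ∘ (jj ∘ u₀)) = c • (jj ∘ u₀) := by
  set u : Fin n → F := jj ∘ u₀ with hu
  set φ : Fin n → F := jj ∘ φ₀ with hφ
  have hdot : φ ⬝ᵥ u = 0 := by rw [hφ, hu, dot_comp, hdot₀, map_zero]
  have hdot' : (τ ∘ φ) ⬝ᵥ (τ ∘ u) = 0 := by
    have := dot_comp (τ : F →+* F) φ u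
    rw [hdot, map_zero] at this
    exact this
  have hτm : (1 + vecMulVec u φ).map τ = 1 + vecMulVec (τ ∘ u) (τ ∘ φ) :=
    map_one_add_vecMulVec (τ : F →+* F) u φ
  rw [map_one_add_vecMulVec jj, ← hu, ← hφ, hτm, mul_add, mul_one, add_mul, one_mul,
    Matrix.mul_vecMulVec, Matrix.vecMulVec_mul] at E
  obtain ⟨k, hk⟩ : ∃ k, u k ≠ 0 := by
    by_contra hcon
    push Not at hcon
    apply hu₀0
    funext i
    have := hcon i
    simp only [hu, Function.comp] at this
    exact (map_eq_zero jj).1 this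
  obtain ⟨l, hl⟩ : ∃ l, (τ ∘ φ) l ≠ 0 := by
    by_contra hcon
    push Not at hcon
    apply hφ₀0
    funext i
    have := hcon i
    simp only [hφ, Function.comp] at this
    exact (map_eq_zero jj).1 ((map_eq_zero τ).1 this)
  have hτu : τ ∘ u ≠ 0 := by
    intro h0
    have := congrFun h0 k
    simp only [Function.comp, Pi.zero_apply] at this
    exact hk ((map_eq_zero τ).1 this)
  set w : Fin n → F := (h : Mn) *ᵥ (τ ∘ u) with hw
  have hw0 : w ≠ 0 := mulVec_ne_zero h hτu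
  have E1 : w = z • (w + (φ ⬝ᵥ w) • u) := by
    have := congrArg (fun M : Mn => M *ᵥ (τ ∘ u)) E
    simp only [Matrix.add_mulVec, Matrix.smul_mulVec, Matrix.vecMulVec_mulVec, hdot'] at this
    rw [← hw, ← Matrix.dotProduct_mulVec, ← hw] at this
    simpa using this
  have hz : z = 1 := by
    by_contra hz1
    have E2 : φ ⬝ᵥ w = z * (φ ⬝ᵥ w) := by
      have := congrArg (fun v => φ ⬝ᵥ v) E1
      simp only [dotProduct_smul, dotProduct_add, hdot, smul_eq_mul, mul_zero, add_zero] at this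
      exact this
    have E3 : φ ⬝ᵥ w = 0 := by
      have h3 : (1 - z) * (φ ⬝ᵥ w) = 0 := by linear_combination E2
      rcases mul_eq_zero.1 h3 with h4 | h4
      · exact absurd (sub_eq_zero.1 h4).symm hz1
      · exact h4
    rw [E3, zero_smul, add_zero] at E1
    have h5 : (1 - z) • w = 0 := by rw [sub_smul, one_smul, ← E1, sub_self]
    rcases smul_eq_zero.1 h5 with h4 | h4
    · exact hz1 (sub_eq_zero.1 h4).symm
    · exact hw0 h4
  rw [hz, one_smul, add_right_inj] at E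
  refine ⟨(φ ᵥ* (h : Mn)) l / (τ ∘ φ) l, ?_⟩
  funext r
  have := congrFun (congrFun E r) l
  rw [Matrix.vecMulVec_apply, Matrix.vecMulVec_apply] at this
  rw [Pi.smul_apply, smul_eq_mul, div_mul_eq_mul_div, eq_div_iff hl, this, mul_comm]

/-- isotropic vectors are eigenvectors -/
theorem eig_gen {q₀ : ℕ} {σ : F₀ ≃+* F₀} (hU : US σ (hermForm n F₀ q₀) q₀) (jj : F₀ →+* F)
    (h : GL (Fin n) F) (τ : F ≃+* F)
    (hc : ∀ s ∈ Cfsg.SU n F₀ q₀, ∃ z : F,
      (h : Mn) * ((s : M0).map jj).map τ = z • ((s : M0).map jj * (h : Mn)))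
    (v : Fin n → F₀) (hv : v ≠ 0) (hvv : hermForm n F₀ q₀ v v = 0) :
    ∃ c : F, (h : Mn) *ᵥ (τ ∘ (jj ∘ v)) = c • (jj ∘ v) := by
  have hf := hU.unitary
  have hH := herm_of_unitary hf
  obtain ⟨a, ha0, ha⟩ := hH.exists_z
  replace ha : a + σ a = 0 := ha
  obtain ⟨i0, hi0⟩ : ∃ i, v i ≠ 0 := by
    by_contra hcon
    push Not at hcon
    exact hv (funext hcon)
  have : Nonempty (Fin n) := ⟨i0⟩
  let φ : Fin n → F₀ := fun j => a * σ (v j)
  have hφx : ∀ x : Fin n → F₀, φ ⬝ᵥ x = a * hermForm n F₀ q₀ x v := by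
    intro x
    unfold hermForm dotProduct
    rw [Finset.mul_sum]
    apply Finset.sum_congr rfl
    intro j _
    show a * σ (v j) * x j = a * (x j * v j ^ q₀)
    rw [hU.pow]
    ring
  have hφv : φ ⬝ᵥ v = 0 := by rw [hφx, hvv, mul_zero]
  have hφ0 : φ ≠ 0 := by
    intro h0
    have := congrFun h0 i0
    have h1 : a * σ (v i0) = 0 := this
    rcases mul_eq_zero.mp h1 with h2 | h2
    · exact ha0 h2
    · exact hi0 ((map_eq_zero σ).mp h2)
  have hmv : ∀ x : Fin n → F₀, (tv v φ hφv : M0) *ᵥ x = x + (a * hermForm n F₀ q₀ x v) • v := by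
    intro x
    rw [tv_coe, add_mulVec, one_mulVec, ← hφx]
    congr 1
    funext i
    simp only [mulVec, vecMulVec_apply, dotProduct, Pi.smul_apply, smul_eq_mul, Finset.sum_mul]
    apply Finset.sum_congr rfl
    intro j _
    ring
  have hmem : tv v φ hφv ∈ Cfsg.SU n F₀ q₀ := by
    intro x y
    have h1 := (utv_mem hf v a hvv ha).1 x y
    simp only [Units.coeHom_apply] at h1
    rw [utv_mulVec, utv_mulVec] at h1
    show hermForm n F₀ q₀ ((tv v φ hφv : M0) *ᵥ x) ((tv v φ hφv : M0) *ᵥ y) = _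
    rw [hmv, hmv]
    exact h1
  obtain ⟨z, E⟩ := hc _ hmem
  rw [tv_coe] at E
  exact tv_line jj h τ v φ hφv hv hφ0 z E

/-- the three coordinate relations -/
theorem key_gen {q₀ : ℕ} {σ : F₀ ≃+* F₀} (hU : US σ (hermForm n F₀ q₀) q₀) (jj : F₀ →+* F)
    (h : GL (Fin n) F) (τ : F ≃+* F)
    (hc : ∀ s ∈ Cfsg.SU n F₀ q₀, ∃ z : F,
      (h : Mn) * ((s : M0).map jj).map τ = z • ((s : M0).map jj * (h : Mn)))
    {i j k : Fin n} (hij : i ≠ j) (hik : i ≠ k) (hjk : j ≠ k) (β γ : F₀)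
    (hN : 1 + β * σ β + γ * σ γ = 0) :
    ∃ c : F, (h : Mn) i i + (h : Mn) i j * τ (jj β) + (h : Mn) i k * τ (jj γ) = c ∧
      (h : Mn) j i + (h : Mn) j j * τ (jj β) + (h : Mn) j k * τ (jj γ) = c * jj β ∧
      (h : Mn) k i + (h : Mn) k j * τ (jj β) + (h : Mn) k k * τ (jj γ) = c * jj γ := by
  have hf := hU.unitary
  let v : Fin n → F₀ := Pi.single i 1 + Pi.single j β + Pi.single k γ
  have hvi : v i = 1 := by
    simp [v, hij, hik]
  have hvj : v j = β := by
    simp [v, hij.symm, hjk]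
  have hvk : v k = γ := by
    simp [v, hik.symm, hjk.symm]
  have hv0 : v ≠ 0 := by
    intro h0
    have := congrFun h0 i
    rw [hvi] at this
    exact one_ne_zero this
  have hvv : hermForm n F₀ q₀ v v = 0 := by
    have e1 : hermForm n F₀ q₀ v v = hermForm n F₀ q₀ (Pi.single i 1) v
        + hermForm n F₀ q₀ (Pi.single j β) v + hermForm n F₀ q₀ (Pi.single k γ) v := by
      conv_lhs => rw [show v = Pi.single i 1 + Pi.single j β + Pi.single k γ from rfl]
      rw [hf.add_left, hf.add_left]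
    rw [e1, herm_single, herm_single, herm_single, hvi, hvj, hvk, one_pow, mul_one, ← hU.pow, ← hU.pow]
    exact hN
  obtain ⟨c, hc'⟩ := eig_gen hU jj h τ hc v hv0 hvv
  have hτv : (τ ∘ (jj ∘ v)) = Pi.single i 1 + Pi.single j (τ (jj β)) + Pi.single k (τ (jj γ)) := by
    funext l
    simp only [v, Function.comp, Pi.add_apply, Pi.single_apply, map_add]
    split_ifs <;> simp
  have hrow : ∀ r, ((h : Mn) *ᵥ (τ ∘ (jj ∘ v))) r =
      (h : Mn) r i + (h : Mn) r j * τ (jj β) + (h : Mn) r k * τ (jj γ) := by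
    intro r
    rw [hτv, mulVec_add, mulVec_add]
    simp [Matrix.mulVec_single, mul_comm]
  refine ⟨c, ?_, ?_, ?_⟩
  · rw [← hrow, hc', Pi.smul_apply, Function.comp, hvi, map_one, smul_eq_mul, mul_one]
  · rw [← hrow, hc', Pi.smul_apply, Function.comp, hvj, smul_eq_mul]
  · rw [← hrow, hc', Pi.smul_apply, Function.comp, hvk, smul_eq_mul]

/-- piece U3 = W5 (general form) -/
theorem uni_core_gen {q₀ : ℕ}
    (hF₀ : Fintype.card F₀ = q₀ ^ 2) (j : F₀ →+* F) (hn : 3 ≤ n)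
    (h : GL (Fin n) F) (τ : F ≃+* F)
    (hc : ∀ s ∈ Cfsg.SU n F₀ q₀, ∃ z : F,
      (h : Mn) * ((s : Matrix (Fin n) (Fin n) F₀).map j).map τ
        = z • ((s : Matrix (Fin n) (Fin n) F₀).map j * (h : Mn))) :
    (∃ c : F, (h : Mn) = c • (1 : Mn)) ∧ ∀ a : F₀, τ (j a) = j a := by
  obtain ⟨σ, hU⟩ := Cfsg.Agent.Lib.Helper57UConv.exists_US (n := n) hF₀
  have hf := hU.unitary
  have hH := herm_of_unitary hf
  have third : ∀ a b : Fin n, ∃ c : Fin n, c ≠ a ∧ c ≠ b := by
    intro a b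
    by_contra hcon
    push Not at hcon
    have h1 : (Finset.univ : Finset (Fin n)) ⊆ {a, b} := by
      intro c _
      by_cases hca : c = a
      · simp [hca]
      · simp [hcon c hca]
    have h2 := Finset.card_le_card h1
    have h3 : ({a, b} : Finset (Fin n)).card ≤ 2 := Finset.card_le_two
    rw [Finset.card_univ, Fintype.card_fin] at h2
    omega
  obtain ⟨β, hβ⟩ := hH.norm_surj (-1) (by simp)
  replace hβ : β * σ β = -1 := hβ
  obtain ⟨u, hu1, hu2⟩ := Cfsg.Agent.Lib.Helper7SUCenter.exists_c hF₀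
  have huσ : u * σ u = 1 := by rw [hU.pow, ← pow_succ', hu1]
  have hu : u ≠ 1 := by
    rintro rfl
    exact hu2 (one_pow 2)
  have hβ0 : β ≠ 0 := by
    rintro rfl
    rw [zero_mul] at hβ
    exact one_ne_zero (neg_eq_zero.mp hβ.symm)
  have hdiag : ∀ r s : Fin n, r ≠ s → (h : Mn) r s = 0 := by
    intro r s hrs
    obtain ⟨i, hir, his⟩ := third r s
    obtain ⟨c, -, -, h3⟩ := key_gen hU j h τ hc his hir hrs.symm β 0 (by rw [hβ]; simp)
    obtain ⟨c', -, -, h3'⟩ := key_gen hU j h τ hc his hir hrs.symm (u * β) 0 (by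
      rw [map_mul]
      have : u * β * (σ u * σ β) = (u * σ u) * (β * σ β) := by ring
      rw [this, huσ, hβ]; simp)
    rw [map_zero, map_zero, mul_zero, mul_zero, add_zero] at h3 h3'
    have h4 : (h : Mn) r s * (τ (j β) - τ (j (u * β))) = 0 := by linear_combination h3 - h3'
    rcases mul_eq_zero.mp h4 with h5 | h5
    · exact h5
    · exfalso
      have h6 : β = u * β := j.injective (τ.injective (sub_eq_zero.mp h5))
      apply hu
      have h7 : (u - 1) * β = 0 := by linear_combination -h6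
      rcases mul_eq_zero.mp h7 with h8 | h8
      · exact sub_eq_zero.mp h8
      · exact absurd h8 hβ0
  have hrel : ∀ i s : Fin n, i ≠ s → ∀ b : F₀, (h : Mn) s s * τ (j b) = (h : Mn) i i * j b := by
    intro i s his b
    obtain ⟨k, hki, hks⟩ := third i s
    obtain ⟨γ, hγ⟩ := hH.norm_surj (-1 - b * σ b) (by
      show σ (-1 - b * σ b) = _
      rw [map_sub, map_neg, map_one, map_mul, hf.involutive, mul_comm])
    replace hγ : γ * σ γ = -1 - b * σ b := hγ
    obtain ⟨c, h1, h2, -⟩ := key_gen hU j h τ hc his hki.symm hks.symm b γ (by rw [hγ]; ring)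
    rw [hdiag i s his, hdiag i k hki.symm, zero_mul, zero_mul, add_zero, add_zero] at h1
    rw [hdiag s i his.symm, hdiag s k hks.symm, zero_mul, zero_add, add_zero] at h2
    rw [h2, h1]
  have heq : ∀ i s : Fin n, (h : Mn) i i = (h : Mn) s s := by
    intro i s
    by_cases his : i = s
    · rw [his]
    · have := hrel i s his 1
      rw [map_one, map_one, mul_one, mul_one] at this
      exact this.symm
  let i0 : Fin n := ⟨0, by omega⟩
  let i1 : Fin n := ⟨1, by omega⟩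
  have h01 : i0 ≠ i1 := by simp [i0, i1]
  have hsc : (h : Mn) = (h : Mn) i0 i0 • (1 : Mn) := by
    ext r s
    by_cases hrs : r = s
    · subst hrs
      simp [heq r i0]
    · rw [hdiag r s hrs]
      simp [Matrix.one_apply_ne hrs]
  have hd0 : (h : Mn) i0 i0 ≠ 0 := by
    intro h0
    have h1 := gl_mul_inv h
    rw [hsc, h0, zero_smul, zero_mul] at h1
    have : Nonempty (Fin n) := ⟨i0⟩
    exact zero_ne_one h1
  refine ⟨⟨_, hsc⟩, ?_⟩
  intro b
  have := hrel i0 i1 h01 b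
  rw [← heq i0 i1] at this
  exact mul_left_cancel₀ hd0 this

end Cfsg.Agent.Lib.Helper42LBW5
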