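import Mathlib
import Cfsg.Prelude
import Cfsg.Agent.Lib.Helper62SU32

set_option autoImplicit false

namespace Cfsg.Agent.Lib.Helper54LBW3a

open Matrix Cfsg Cfsg.Agent.Lib.Helper62F4 Cfsg.Agent.Lib.Helper62SU32

/-- call-by-value evaluation of an element of the model field -/
def force {α : Sort*} (x : F4) (k : F4 → α) : α :=
  match x with
  | ⟨false, false⟩ => k ⟨false, false⟩
  | ⟨false, true⟩ => k ⟨false, true⟩
  | ⟨true, false⟩ => k ⟨true, false⟩
  | ⟨true, true⟩ => k ⟨true, true⟩

theorem force_eq {α : Sort*} (x : F4) (k : F4 → α) : force x k = k x := by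
  rcases x with ⟨_ | _, _ | _⟩ <;> rfl

/-- call-by-value evaluation of a matrix -/
def forceM {α : Sort*} (T : M3) (k : M3 → α) : α :=
  force (T 0 0) fun a => force (T 0 1) fun b => force (T 0 2) fun c =>
  force (T 1 0) fun d => force (T 1 1) fun e => force (T 1 2) fun f =>
  force (T 2 0) fun g => force (T 2 1) fun h => force (T 2 2) fun i =>
    k !![a, b, c; d, e, f; g, h, i]

theorem forceM_eq {α : Sort*} (T : M3) (k : M3 → α) : forceM T k = k T := by
  unfold forceM
  simp only [force_eq]
  rw [← Matrix.eta_fin_three T]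

def X : M3 := !![1, 0, 0; 0, w, 0; 0, 0, w * w]
def Xi : M3 := !![1, 0, 0; 0, w * w, 0; 0, 0, w]
def Y : M3 := !![0, 0, 1; 1, 0, 0; 0, 1, 0]
def Yi : M3 := !![0, 1, 0; 0, 0, 1; 1, 0, 0]

/-- scalar matrices -/
def scal (T : M3) : Bool := decide (∃ c : F4, T = Matrix.scalar (Fin 3) c)

/-- non-scalar with scalar cube -/
def good (T : M3) : Bool :=
  forceM (T * T) fun T2 => forceM (T2 * T) fun T3 => !(scal T) && scal T3

def adj (M : M3) : M3 := (sqm M)ᵀ

def chk (M : M3) : Bool :=
  forceM (adj M) fun A =>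
    scal M || good M ||
    (forceM (M * X) fun B => forceM (B * A) fun C => forceM (C * Xi) fun T => good T) ||
    (forceM (M * Y) fun B => forceM (B * A) fun C => forceM (C * Yi) fun T => good T)

def chk12 (M : M3) : Bool :=
  forceM (M * M) fun M2 => forceM (M2 * M2) fun M4 => forceM (M4 * M4) fun M8 =>
  forceM (M8 * M) fun M9 => forceM (M9 * M9) fun M18 =>
    decide (M18 * M18 = 1)

set_option maxRecDepth 100000 in
set_option synthInstance.maxSize 100000 in
set_option synthInstance.maxHeartbeats 1000000 in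
theorem chk_all : ∀ a b c : F4, nrm a b c = 1 → ∀ d e f : F4, nrm d e f = 1 → ip a b c d e f = 0 →
      ∀ g h i : F4, nrm g h i = 1 → ip a b c g h i = 0 → ip d e f g h i = 0 →
      chk !![a, d, g; b, e, h; c, f, i] = true := by
  decide +kernel

set_option maxRecDepth 100000 in
set_option synthInstance.maxSize 100000 in
set_option synthInstance.maxHeartbeats 1000000 in
theorem chk12_all : ∀ a b c : F4, nrm a b c = 1 → ∀ d e f : F4, nrm d e f = 1 →
      ip a b c d e f = 0 →
      ∀ g h i : F4, nrm g h i = 1 → ip a b c g h i = 0 → ip d e f g h i = 0 →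
      chk12 !![a, d, g; b, e, h; c, f, i] = true := by
  decide +kernel

end Cfsg.Agent.Lib.Helper54LBW3a
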