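import Mathlib
import Cfsg.Prelude
import Cfsg.Agent.Lib.Helper62SU32
import Cfsg.Agent.Lib.Helper54LBW3a

set_option autoImplicit false

namespace Cfsg.Agent.Lib.Helper54LBW3

open Matrix Cfsg Cfsg.Agent.Lib.Helper62F4 Cfsg.Agent.Lib.Helper62SU32
  Cfsg.Agent.Lib.Helper54LBW3a

section gen
variable {K : Type*} [Field K]

/-- scalar matrices -/
def IsScal (T : Matrix (Fin 3) (Fin 3) K) : Prop := ∃ c : K, T = Matrix.scalar (Fin 3) c

/-- non-scalar matrices with scalar cube -/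
def IsGood (T : Matrix (Fin 3) (Fin 3) K) : Prop := ¬ IsScal T ∧ IsScal (T * T * T)

theorem mk_eq_one_iff (s : Matrix.SpecialLinearGroup (Fin 3) K) :
    (QuotientGroup.mk s : Matrix.ProjectiveSpecialLinearGroup (Fin 3) K) = 1 ↔ IsScal s.1 := by
  rw [QuotientGroup.eq_one_iff, Matrix.SpecialLinearGroup.mem_center_iff]
  constructor
  · rintro ⟨r, -, hr⟩
    exact ⟨r, hr.symm⟩
  · rintro ⟨c, hc⟩
    refine ⟨c, ?_, hc.symm⟩
    have := s.2
    rw [hc] at this
    simpa using this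

theorem orderOf_of_good (s : Matrix.SpecialLinearGroup (Fin 3) K) (h : IsGood s.1) :
    orderOf (QuotientGroup.mk s : Matrix.ProjectiveSpecialLinearGroup (Fin 3) K) = 3 := by
  have : Fact (Nat.Prime 3) := ⟨by norm_num⟩
  apply orderOf_eq_prime
  · rw [← QuotientGroup.mk_pow, mk_eq_one_iff]
    have : (s ^ 3).1 = s.1 * s.1 * s.1 := by
      rw [pow_succ, pow_two]; rfl
    rw [this]
    exact h.2
  · rw [Ne, mk_eq_one_iff]
    exact h.1

variable {K' : Type*} [Field K']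

theorem IsScal.map_iff (e : K ≃+* K') (T : Matrix (Fin 3) (Fin 3) K) :
    IsScal (T.map e) ↔ IsScal T := by
  constructor
  · rintro ⟨c, hc⟩
    refine ⟨e.symm c, ?_⟩
    apply Matrix.map_injective e.injective
    show T.map e = _
    rw [hc]
    ext i j
    by_cases hij : i = j
    · subst hij; simp
    · simp [hij]
  · rintro ⟨c, hc⟩
    refine ⟨e c, ?_⟩
    rw [hc]
    ext i j
    by_cases hij : i = j
    · subst hij; simp
    · simp [hij]

theorem IsGood.map_iff (e : K ≃+* K') (T : Matrix (Fin 3) (Fin 3) K) :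
    IsGood (T.map e) ↔ IsGood T := by
  unfold IsGood
  rw [IsScal.map_iff, ← Matrix.map_mul, ← Matrix.map_mul, IsScal.map_iff]

end gen

theorem scal_iff (T : M3) : scal T = true ↔ IsScal T := by
  unfold scal
  rw [decide_eq_true_iff]
  rfl

theorem good_iff (T : M3) : good T = true ↔ IsGood T := by
  unfold good
  simp only [forceM_eq]
  rw [Bool.and_eq_true, scal_iff, Bool.not_eq_true', ← Bool.not_eq_true, scal_iff]
  rfl

theorem chk_iff (M : M3) : chk M = true ↔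
    IsScal M ∨ IsGood M ∨ IsGood (M * X * adj M * Helper54LBW3a.Xi) ∨ IsGood (M * Y * adj M * Yi) := by
  unfold chk
  simp only [forceM_eq]
  rw [Bool.or_eq_true, Bool.or_eq_true, Bool.or_eq_true, scal_iff, good_iff, good_iff, good_iff]
  tauto

theorem chk12_iff (M : M3) : chk12 M = true ↔ M ^ 36 = 1 := by
  unfold chk12
  simp only [forceM_eq]
  rw [decide_eq_true_iff]
  have : M ^ 36 = M * M * (M * M) * (M * M * (M * M)) * M *
      (M * M * (M * M) * (M * M * (M * M)) * M) *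
      (M * M * (M * M) * (M * M * (M * M)) * M *
      (M * M * (M * M) * (M * M * (M * M)) * M)) := by
    simp only [← pow_two, ← pow_mul, ← pow_succ]
    norm_num
  rw [this]

def xX : Cfsg.SU 3 F4 2 := mkSU X (by rw [Matrix.det_fin_three]; decide +kernel) (by decide +kernel)
def xY : Cfsg.SU 3 F4 2 := mkSU Y (by rw [Matrix.det_fin_three]; decide +kernel) (by decide +kernel)

theorem inv_val (x : Cfsg.SU 3 F4 2) : (x⁻¹).1.1 = adj x.1.1 := by
  have h1 := (mem_SU_iff x.1).1 x.2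
  have h2 : adj x.1.1 * x.1.1 = 1 := by
    have := congrArg Matrix.transpose h1
    rw [Matrix.transpose_mul, Matrix.transpose_transpose, Matrix.transpose_one] at this
    exact this
  have h3 : x.1.1 * (x⁻¹).1.1 = 1 := by
    have : x * x⁻¹ = 1 := mul_inv_cancel x
    exact congrArg (fun y : Cfsg.SU 3 F4 2 => y.1.1) this
  calc (x⁻¹).1.1 = (adj x.1.1 * x.1.1) * (x⁻¹).1.1 := by rw [h2, one_mul]
    _ = adj x.1.1 := by rw [mul_assoc, h3, mul_one]

theorem xX_inv : (xX⁻¹).1.1 = Helper54LBW3a.Xi := by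
  rw [inv_val]
  show adj X = Helper54LBW3a.Xi
  decide +kernel

theorem xY_inv : (xY⁻¹).1.1 = Yi := by
  rw [inv_val]
  show adj Y = Yi
  decide +kernel

theorem model (N : Subgroup (Cfsg.SU 3 F4 2)) (hN : N.Normal) :
    (∀ x ∈ N, IsScal x.1.1) ∨ ∃ t ∈ N, IsGood t.1.1 := by
  by_contra hcon
  push Not at hcon
  obtain ⟨⟨x, hxN, hx⟩, hg⟩ := hcon
  have h := forall_SU (fun M => chk M = true) chk_all x
  simp only [chk_iff] at h
  rcases h with h | h | h | h
  · exact hx h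
  · exact hg x hxN h
  · refine hg (x * (xX * x⁻¹ * xX⁻¹)) (N.mul_mem hxN (hN.conj_mem _ (N.inv_mem hxN) _)) ?_
    have : (x * (xX * x⁻¹ * xX⁻¹)).1.1 = x.1.1 * X * adj x.1.1 * Helper54LBW3a.Xi := by
      rw [← inv_val, ← xX_inv]
      show x.1.1 * (X * (x⁻¹).1.1 * (xX⁻¹).1.1) = _
      simp only [mul_assoc]
    rw [this]
    exact h
  · refine hg (x * (xY * x⁻¹ * xY⁻¹)) (N.mul_mem hxN (hN.conj_mem _ (N.inv_mem hxN) _)) ?_
    have : (x * (xY * x⁻¹ * xY⁻¹)).1.1 = x.1.1 * Y * adj x.1.1 * Yi := by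
      rw [← inv_val, ← xY_inv]
      show x.1.1 * (Y * (x⁻¹).1.1 * (xY⁻¹).1.1) = _
      simp only [mul_assoc]
    rw [this]
    exact h

theorem model36 (x : Cfsg.SU 3 F4 2) : x ^ 36 = 1 := by
  have h := forall_SU (fun M => chk12 M = true) chk12_all x
  simp only [chk12_iff] at h
  apply Subtype.ext
  apply Matrix.SpecialLinearGroup.ext
  intro i j
  rw [Subgroup.coe_pow, Matrix.SpecialLinearGroup.coe_pow]
  have h' : (x.1 : M3) ^ 36 = 1 := h
  rw [h']
  rfl

variable {F₀ : Type*} [Field F₀] [Fintype F₀]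

theorem su_H3_small (hF₀ : Fintype.card F₀ = 2 ^ 2) (p : ℕ) (hp : p.Prime) (hp2 : p ≠ 2)
    (t₀ : Matrix.SpecialLinearGroup (Fin 3) F₀) (ht₀ : t₀ ∈ Cfsg.SU 3 F₀ 2)
    (ho : orderOf (QuotientGroup.mk t₀ : Matrix.ProjectiveSpecialLinearGroup (Fin 3) F₀) = p)
    (N₀ : Subgroup ↥(Cfsg.SU 3 F₀ 2)) (hN : N₀.Normal) :
    (∀ x ∈ N₀, (QuotientGroup.mk (x : Matrix.SpecialLinearGroup (Fin 3) F₀) :
        Matrix.ProjectiveSpecialLinearGroup (Fin 3) F₀) = 1) ∨
      ∃ t ∈ N₀, orderOf (QuotientGroup.mk (t : Matrix.SpecialLinearGroup (Fin 3) F₀) :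
        Matrix.ProjectiveSpecialLinearGroup (Fin 3) F₀) = p := by
  have hF : Fintype.card F₀ = 4 := by rw [hF₀]; norm_num
  have hch : CharP F₀ 2 := charP_of_card hF
  set e := equivF4 hF with he
  set E := suEquiv e with hE
  have hval : ∀ x : Cfsg.SU 3 F₀ 2, (E x).1.1 = x.1.1.map e := fun x => rfl
  -- p = 3
  have hp3 : p = 3 := by
    have h1 : (⟨t₀, ht₀⟩ : Cfsg.SU 3 F₀ 2) ^ 36 = 1 := by
      apply E.injective
      rw [map_pow, map_one]
      exact model36 _
    have h2 : t₀ ^ 36 = 1 := congrArg Subtype.val h1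
    have h3 : (QuotientGroup.mk t₀ : Matrix.ProjectiveSpecialLinearGroup (Fin 3) F₀) ^ 36 = 1 := by
      rw [← QuotientGroup.mk_pow, h2]; rfl
    have h4 : p ∣ 36 := ho ▸ orderOf_dvd_of_pow_eq_one h3
    have h5 : p ∣ 2 ^ 2 * 3 ^ 2 := by norm_num; exact h4
    rcases (Nat.Prime.dvd_mul hp).1 h5 with h | h
    · exact absurd ((Nat.prime_dvd_prime_iff_eq hp Nat.prime_two).1 (hp.dvd_of_dvd_pow h)) hp2
    · exact (Nat.prime_dvd_prime_iff_eq hp Nat.prime_three).1 (hp.dvd_of_dvd_pow h)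
  subst hp3
  have hN' : (N₀.map E.toMonoidHom).Normal := hN.map _ E.surjective
  rcases model _ hN' with h | ⟨t, ht, hg⟩
  · left
    intro x hx
    rw [mk_eq_one_iff]
    have := h (E x) (Subgroup.mem_map_of_mem _ hx)
    rw [hval, IsScal.map_iff] at this
    exact this
  · right
    obtain ⟨s, hs, rfl⟩ := ht
    refine ⟨s, hs, orderOf_of_good _ ?_⟩
    have : IsGood (E s).1.1 := hg
    rw [hval, IsGood.map_iff] at this
    exact this

end Cfsg.Agent.Lib.Helper54LBW3
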