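import Mathlib
import Cfsg.Prelude
import Cfsg.Agent.Lib.Helper42LBDefs
import Cfsg.Agent.Lib.Helper42LBUDefs
import Cfsg.Agent.Lib.Helper7SUCenter

set_option autoImplicit false

/-! PROJECT 42, PART 2, piece W1: `su_le`, `su_norm`, `su_ne`. -/

namespace Cfsg.Agent.Lib.Helper6LBW1

open Matrix Cfsg Cfsg.Agent.Lib.Helper50Aut Cfsg.Agent.Lib.Helper50UAut
  Cfsg.Agent.Lib.Helper42BalA Cfsg.Agent.Lib.Helper49EichGen Cfsg.Agent.Lib.Helper42LBDefs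
  Cfsg.Agent.Lib.Helper42LBUDefs

variable {F : Type*} [Field F] [Fintype F] {n : ℕ} {q : ℕ}
variable {F₀ : Type*} [Field F₀] [Fintype F₀]

local notation "SLn" => Matrix.SpecialLinearGroup (Fin n) F
local notation "Mn" => Matrix (Fin n) (Fin n) F
local notation "SL0" => Matrix.SpecialLinearGroup (Fin n) F₀
local notation "M0" => Matrix (Fin n) (Fin n) F₀
local notation "π₀" => (QuotientGroup.mk : Matrix.SpecialLinearGroup (Fin n) F₀ →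
  Matrix.SpecialLinearGroup (Fin n) F₀ ⧸ Subgroup.center (Matrix.SpecialLinearGroup (Fin n) F₀))

/-- piece W1 (three statements) -/
theorem su_le {q₀ : ℕ} (hF : Fintype.card F = q ^ 2) (hF₀ : Fintype.card F₀ = q₀ ^ 2)
    (j : F₀ →+* F) (hjq : ∀ x : F₀, j x ^ q = j (x ^ q₀)) (s₀ : SL0) (hs₀ : s₀ ∈ Cfsg.SU n F₀ q₀) :
    embS j (1 : GL (Fin n) F) s₀ ∈ Cfsg.SU n F q := by
  rw [Cfsg.Agent.Lib.Helper7SU.mem_SU_iff hF]
  rw [Cfsg.Agent.Lib.Helper7SU.mem_SU_iff hF₀] at hs₀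
  have h1 : (embS j (1 : GL (Fin n) F) s₀).1 = (s₀ : M0).map j := by
    have := embS_coe j (1 : GL (Fin n) F) s₀
    rw [this]
    simp
  rw [h1]
  exact (Cfsg.Agent.Lib.Helper50UTw.isU_map_iff j hjq _).2 hs₀

omit [Fintype F] [Fintype F₀] in
theorem j_herm {q₀ : ℕ} (j : F₀ →+* F) (hjq : ∀ x : F₀, j x ^ q = j (x ^ q₀))
    (u v : Fin n → F₀) :
    j (Cfsg.hermForm n F₀ q₀ u v) = Cfsg.hermForm n F q (j ∘ u) (j ∘ v) := by
  unfold Cfsg.hermForm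
  rw [map_sum]
  apply Finset.sum_congr rfl
  intro i _
  rw [map_mul, Function.comp_apply, Function.comp_apply, hjq]

theorem su_norm {q₀ : ℕ} (hF : Fintype.card F = q ^ 2) (hF₀ : Fintype.card F₀ = q₀ ^ 2)
    (j : F₀ →+* F) (hjq : ∀ x : F₀, j x ^ q = j (x ^ q₀))
    (y₀ : GL (Fin n) F₀) (x : ↥(Cfsg.SU n F q)) (μ : F)
    (hx : ((x : SLn) : Mn) = μ • (((1 : GL (Fin n) F) : Mn) * (y₀ : M0).map j
      * (((1 : GL (Fin n) F)⁻¹ : GL (Fin n) F) : Mn)))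
    (s₀ : SL0) (hs₀ : s₀ ∈ Cfsg.SU n F₀ q₀) : conjGL y₀ s₀ ∈ Cfsg.SU n F₀ q₀ := by
  have hx' : ((x : SLn) : Mn) = μ • (y₀ : M0).map j := by
    rw [hx]; simp
  have hxU : ∀ u v : Fin n → F, Cfsg.hermForm n F q (((x : SLn) : Mn) *ᵥ u) (((x : SLn) : Mn) *ᵥ v)
      = Cfsg.hermForm n F q u v := x.2
  have hsU : ∀ u v : Fin n → F₀, Cfsg.hermForm n F₀ q₀ ((s₀ : M0) *ᵥ u) ((s₀ : M0) *ᵥ v)
      = Cfsg.hermForm n F₀ q₀ u v := hs₀
  -- similitude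
  have hsim : ∀ u v : Fin n → F₀, μ ^ (q + 1) * j (Cfsg.hermForm n F₀ q₀ ((y₀ : M0) *ᵥ u)
      ((y₀ : M0) *ᵥ v)) = j (Cfsg.hermForm n F₀ q₀ u v) := by
    intro u v
    have h1 := hxU (j ∘ u) (j ∘ v)
    rw [hx', Matrix.smul_mulVec, Matrix.smul_mulVec, Cfsg.Agent.Lib.Helper7GU.h_smul_left,
      Cfsg.Agent.Lib.Helper7GU.h_smul_right] at h1
    have h2 : ∀ w : Fin n → F₀, (y₀ : M0).map j *ᵥ (j ∘ w) = j ∘ ((y₀ : M0) *ᵥ w) := by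
      intro w
      ext i
      exact (RingHom.map_mulVec j _ _ i).symm
    rw [h2, h2, ← j_herm j hjq, ← j_herm j hjq] at h1
    rw [← h1]
    ring
  show ∀ u v : Fin n → F₀, Cfsg.hermForm n F₀ q₀ (((conjGL y₀ s₀ : SL0) : M0) *ᵥ u)
      (((conjGL y₀ s₀ : SL0) : M0) *ᵥ v) = Cfsg.hermForm n F₀ q₀ u v
  intro u v
  have hc : ((conjGL y₀ s₀ : SL0) : M0) = (y₀ : M0) * (s₀ : M0) * ((y₀⁻¹ : GL (Fin n) F₀) : M0) := rfl
  apply j.injective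
  by_cases hμ : μ ^ (q + 1) = 0
  · have h0 : ∀ u v : Fin n → F₀, j (Cfsg.hermForm n F₀ q₀ u v) = 0 := by
      intro u v
      rw [← hsim, hμ, zero_mul]
    rw [h0, h0]
  · apply mul_left_cancel₀ hμ
    rw [hc, ← Matrix.mulVec_mulVec, ← Matrix.mulVec_mulVec, ← Matrix.mulVec_mulVec,
      ← Matrix.mulVec_mulVec, hsim, hsU, ← hsim, Matrix.mulVec_mulVec, Matrix.mulVec_mulVec]
    have : (y₀ : M0) * ((y₀⁻¹ : GL (Fin n) F₀) : M0) = 1 := by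
      rw [← Units.val_mul, mul_inv_cancel]; rfl
    rw [this, Matrix.one_mulVec, Matrix.one_mulVec]

theorem su_ne {q₀ : ℕ} (hF₀ : Fintype.card F₀ = q₀ ^ 2) (hn : 3 ≤ n) :
    ∃ s₀ ∈ Cfsg.SU n F₀ q₀, π₀ s₀ ≠ 1 := by
  have h01 : (⟨0, by omega⟩ : Fin n) ≠ ⟨1, by omega⟩ := by
    intro h; simpa using congrArg Fin.val h
  let w : SL0 := ⟨Cfsg.Agent.Lib.Helper7SUCenter.wM F₀ ⟨0, by omega⟩ ⟨1, by omega⟩,
    Cfsg.Agent.Lib.Helper7SUCenter.det_wM h01⟩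
  refine ⟨w, ?_, ?_⟩
  · rw [Cfsg.Agent.Lib.Helper7SU.mem_SU_iff hF₀]
    exact Cfsg.Agent.Lib.Helper7SUCenter.isU_wM hF₀ _ _
  · intro h
    rw [QuotientGroup.eq_one_iff, Matrix.SpecialLinearGroup.mem_center_iff] at h
    obtain ⟨r, -, hr⟩ := h
    have e0 := congrFun (congrFun hr ⟨0, by omega⟩) ⟨0, by omega⟩
    have e2 := congrFun (congrFun hr ⟨2, by omega⟩) ⟨2, by omega⟩
    have d0 : Cfsg.Agent.Lib.Helper7SUCenter.wM F₀ (⟨0, by omega⟩ : Fin n) ⟨1, by omega⟩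
        ⟨0, by omega⟩ ⟨0, by omega⟩ = 0 := by
      unfold Cfsg.Agent.Lib.Helper7SUCenter.wM
      rw [Matrix.mul_diagonal]
      simp [Matrix.swap, Equiv.Perm.permMatrix, PEquiv.toMatrix_apply, Equiv.swap_apply_left]
    have d2 : Cfsg.Agent.Lib.Helper7SUCenter.wM F₀ (⟨0, by omega⟩ : Fin n) ⟨1, by omega⟩
        ⟨2, by omega⟩ ⟨2, by omega⟩ = 1 := by
      unfold Cfsg.Agent.Lib.Helper7SUCenter.wM
      rw [Matrix.mul_diagonal]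
      simp [Matrix.swap, Equiv.Perm.permMatrix, PEquiv.toMatrix_apply, Equiv.swap_apply_of_ne_of_ne]
    simp only [Matrix.scalar_apply, Matrix.diagonal_apply_eq] at e0 e2
    have e0' : r = 0 := e0.trans d0
    have e2' : r = 1 := e2.trans d2
    exact zero_ne_one (e0'.symm.trans e2')

end Cfsg.Agent.Lib.Helper6LBW1
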