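import Mathlib
import Cfsg.Prelude
import Cfsg.Agent.Lib.Helper42LBDefs
import Cfsg.Agent.Lib.Helper42LBUDefs
import Cfsg.Agent.Lib.Helper6LBU2

set_option autoImplicit false

/-! PROJECT 42, PART 2, piece W2: `su_H3_big`. -/

namespace Cfsg.Agent.Lib.Helper6LBW2

open Matrix Cfsg Cfsg.Agent.Lib.Helper50Aut Cfsg.Agent.Lib.Helper50UAut
  Cfsg.Agent.Lib.Helper42BalA Cfsg.Agent.Lib.Helper49EichGen Cfsg.Agent.Lib.Helper42LBDefs
  Cfsg.Agent.Lib.Helper42LBUDefs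

variable {n : ℕ}
variable {F₀ : Type*} [Field F₀] [Fintype F₀]

local notation "SL0" => Matrix.SpecialLinearGroup (Fin n) F₀
local notation "M0" => Matrix (Fin n) (Fin n) F₀
local notation "π₀" => (QuotientGroup.mk : Matrix.SpecialLinearGroup (Fin n) F₀ →
  Matrix.SpecialLinearGroup (Fin n) F₀ ⧸ Subgroup.center (Matrix.SpecialLinearGroup (Fin n) F₀))

/-- piece W2 -/
theorem su_H3_big {q₀ : ℕ} (hF₀ : Fintype.card F₀ = q₀ ^ 2) (hn : 3 ≤ n)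
    (hbig : ¬ (n = 3 ∧ q₀ = 2)) (p : ℕ) (t₀ : SL0) (ht₀ : t₀ ∈ Cfsg.SU n F₀ q₀)
    (ho : orderOf (π₀ t₀) = p) (N₀ : Subgroup ↥(Cfsg.SU n F₀ q₀)) (hN : N₀.Normal) :
    (∀ x ∈ N₀, π₀ (x : SL0) = 1) ∨ ∃ t ∈ N₀, orderOf (π₀ (t : SL0)) = p := by
  have hs := Cfsg.Agent.S0283.result hF₀ n hn hbig
  have hcen : ∀ z : ↥(Cfsg.SU n F₀ q₀), z ∈ Subgroup.center ↥(Cfsg.SU n F₀ q₀) →
      π₀ (z : SL0) = 1 := by
    intro z hz
    obtain ⟨μ, hμ⟩ := (Cfsg.Agent.Lib.Helper45SU.mem_center_iff hF₀ (by omega) z).1 hz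
    exact Cfsg.Agent.Lib.Helper6LBU2.mk_eq_one_of_scalar _ μ hμ
  have hN' : (N₀.map (QuotientGroup.mk' (Subgroup.center ↥(Cfsg.SU n F₀ q₀)))).Normal :=
    hN.map _ (QuotientGroup.mk'_surjective _)
  rcases hN'.eq_bot_or_eq_top with h | h
  · left
    intro x hx
    apply hcen
    have h1 : QuotientGroup.mk' (Subgroup.center ↥(Cfsg.SU n F₀ q₀)) x ∈
        N₀.map (QuotientGroup.mk' (Subgroup.center ↥(Cfsg.SU n F₀ q₀))) :=
      Subgroup.mem_map_of_mem _ hx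
    rw [h, Subgroup.mem_bot] at h1
    exact (QuotientGroup.eq_one_iff x).1 h1
  · right
    have h1 : QuotientGroup.mk' (Subgroup.center ↥(Cfsg.SU n F₀ q₀)) ⟨t₀, ht₀⟩ ∈
        N₀.map (QuotientGroup.mk' (Subgroup.center ↥(Cfsg.SU n F₀ q₀))) := by rw [h]; trivial
    obtain ⟨x, hx, e⟩ := h1
    refine ⟨x, hx, ?_⟩
    have h3 : x⁻¹ * ⟨t₀, ht₀⟩ ∈ Subgroup.center ↥(Cfsg.SU n F₀ q₀) :=
      QuotientGroup.eq.1 e
    have h4 := hcen _ h3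
    have h5 : π₀ t₀ = π₀ (x : SL0) := by
      have h6 : t₀ = (x : SL0) *
          ((x⁻¹ * ⟨t₀, ht₀⟩ : ↥(Cfsg.SU n F₀ q₀)) : SL0) := by
        show t₀ = (x : SL0) * ((x : SL0)⁻¹ * t₀)
        group
      rw [h6, QuotientGroup.mk_mul, h4, mul_one]
    rw [← h5]
    exact ho

end Cfsg.Agent.Lib.Helper6LBW2
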