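import Mathlib
import Cfsg.Prelude
import Cfsg.Agent.Lib.Helper42LBDefs
import Cfsg.Agent.Lib.Helper42LBUDefs
import Cfsg.Agent.Lib.Helper95LBO2

set_option autoImplicit false
set_option linter.unusedSectionVars false

/-! PROJECT 42, PART 2, piece X3: three small statements over one field. -/

namespace Cfsg.Agent.Lib.Helper95LBX3

open Matrix Cfsg Cfsg.Agent.Lib.Helper50Aut Cfsg.Agent.Lib.Helper50UAut
  Cfsg.Agent.Lib.Helper42BalA Cfsg.Agent.Lib.Helper49EichGen Cfsg.Agent.Lib.Helper42LBDefs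
  Cfsg.Agent.Lib.Helper42LBUDefs

variable {F : Type*} [Field F] [Fintype F] {n : ℕ} {q : ℕ}

local notation "SLn" => Matrix.SpecialLinearGroup (Fin n) F
local notation "Mn" => Matrix (Fin n) (Fin n) F

/-- a symmetric matrix in odd characteristic is determined by its quadratic form -/
lemma eq_of_qf_eq (h2 : (2 : F) ≠ 0) (A B : Mn) (hA : Aᵀ = A) (hB : Bᵀ = B)
    (h : ∀ v : Fin n → F, v ⬝ᵥ (A *ᵥ v) = v ⬝ᵥ (B *ᵥ v)) : A = B := by
  have hsym : ∀ (C : Mn), Cᵀ = C → ∀ u v : Fin n → F, v ⬝ᵥ (C *ᵥ u) = u ⬝ᵥ (C *ᵥ v) := by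
    intro C hC u v
    rw [dotProduct_comm v, ← Matrix.vecMul_transpose, hC, Matrix.dotProduct_mulVec]
  have key : ∀ u v : Fin n → F, u ⬝ᵥ (A *ᵥ v) = u ⬝ᵥ (B *ᵥ v) := by
    intro u v
    have h1 := h (u + v)
    rw [Matrix.mulVec_add, Matrix.mulVec_add, add_dotProduct, dotProduct_add, dotProduct_add,
      add_dotProduct, dotProduct_add, dotProduct_add, h u, h v, hsym A hA u v, hsym B hB u v] at h1
    have h3 : (2 : F) * (u ⬝ᵥ (A *ᵥ v)) = 2 * (u ⬝ᵥ (B *ᵥ v)) := by linear_combination h1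
    exact mul_left_cancel₀ h2 h3
  ext i j
  have := key (Pi.single i 1) (Pi.single j 1)
  simpa using this

/-- `sᵀ g⁻¹ s = g⁻¹` gives `s g sᵀ = g` (for invertible `s`) -/
lemma gram_dual (g : GL (Fin n) F) (s t : Mn) (hst : s * t = 1)
    (h : sᵀ * ((g⁻¹ : GL (Fin n) F) : Mn) * s = ((g⁻¹ : GL (Fin n) F) : Mn)) :
    s * (g : Mn) * sᵀ = (g : Mn) := by
  have hts : t * s = 1 := mul_eq_one_comm.1 hst
  -- `(s g sᵀ) g⁻¹ s = s`
  have h1 : s * (g : Mn) * sᵀ * (((g⁻¹ : GL (Fin n) F) : Mn) * s) = s := by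
    calc s * (g : Mn) * sᵀ * (((g⁻¹ : GL (Fin n) F) : Mn) * s)
        = s * (g : Mn) * (sᵀ * ((g⁻¹ : GL (Fin n) F) : Mn) * s) := by simp only [Matrix.mul_assoc]
      _ = s := by rw [h, Matrix.mul_assoc, gl_mul_inv, Matrix.mul_one]
  calc s * (g : Mn) * sᵀ
      = s * (g : Mn) * sᵀ * (((g⁻¹ : GL (Fin n) F) : Mn) * s) * (t * (g : Mn)) := by
        have : (((g⁻¹ : GL (Fin n) F) : Mn) * s) * (t * (g : Mn)) = 1 := by
          calc (((g⁻¹ : GL (Fin n) F) : Mn) * s) * (t * (g : Mn))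
              = ((g⁻¹ : GL (Fin n) F) : Mn) * (s * t) * (g : Mn) := by simp only [Matrix.mul_assoc]
            _ = 1 := by rw [hst, Matrix.mul_one, gl_inv_mul]
        rw [Matrix.mul_assoc _ _ (t * (g : Mn)), this, Matrix.mul_one]
    _ = (g : Mn) := by rw [h1, ← Matrix.mul_assoc, hst, Matrix.one_mul]

lemma inv_transpose_eq (g : GL (Fin n) F) (hg : (g : Mn)ᵀ = g) :
    (((g⁻¹ : GL (Fin n) F) : Mn))ᵀ = ((g⁻¹ : GL (Fin n) F) : Mn) := by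
  have h1 : (((g⁻¹ : GL (Fin n) F) : Mn))ᵀ * (g : Mn) = 1 := by
    have := congrArg Matrix.transpose (gl_mul_inv g)
    rw [Matrix.transpose_mul, hg, Matrix.transpose_one] at this
    exact this
  calc (((g⁻¹ : GL (Fin n) F) : Mn))ᵀ
      = (((g⁻¹ : GL (Fin n) F) : Mn))ᵀ * ((g : Mn) * ((g⁻¹ : GL (Fin n) F) : Mn)) := by
        rw [gl_mul_inv, Matrix.mul_one]
    _ = ((g⁻¹ : GL (Fin n) F) : Mn) := by rw [← Matrix.mul_assoc, h1, Matrix.one_mul]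

/-- piece X3 (three small statements over one field) -/
theorem eichS_le_isoS (h2 : (2 : F) ≠ 0) (g : GL (Fin n) F) (hg : (g : Mn)ᵀ = g) :
    eichS (qf ((g⁻¹ : GL (Fin n) F) : Mn)) ≤ isoS (g : Mn) := by
  intro s hs
  obtain ⟨t, -, hts⟩ := mem_eichS.1 hs
  have hiso : ∀ v, qf ((g⁻¹ : GL (Fin n) F) : Mn) ((s : Mn) *ᵥ v)
      = qf ((g⁻¹ : GL (Fin n) F) : Mn) v := by
    intro v
    have := Cfsg.Agent.Lib.Helper49Orth.mem_iso.1 t.2 v
    rw [hts] at this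
    exact this
  have hgi := inv_transpose_eq g hg
  have hgram : (s : Mn)ᵀ * ((g⁻¹ : GL (Fin n) F) : Mn) * (s : Mn) = ((g⁻¹ : GL (Fin n) F) : Mn) := by
    apply eq_of_qf_eq h2
    · rw [Matrix.transpose_mul, Matrix.transpose_mul, Matrix.transpose_transpose, hgi,
        Matrix.mul_assoc]
    · exact hgi
    · intro v
      have := hiso v
      rw [Helper95LBO2.qf_apply, Helper95LBO2.qf_apply, Matrix.mulVec_mulVec,
        ← Matrix.vecMul_transpose, ← Matrix.dotProduct_mulVec, Matrix.mulVec_mulVec,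
        ← Matrix.mul_assoc] at this
      exact this
  refine mem_isoS.2 (gram_dual g (s : Mn) ((s⁻¹ : SLn) : Mn) ?_ hgram)
  rw [← Matrix.SpecialLinearGroup.coe_mul, mul_inv_cancel, Matrix.SpecialLinearGroup.coe_one]

theorem qf_simil (g y : GL (Fin n) F) (c : F)
    (hy : (y : Mn)ᵀ * ((g⁻¹ : GL (Fin n) F) : Mn) * (y : Mn) = c • ((g⁻¹ : GL (Fin n) F) : Mn))
    (v : Fin n → F) :
    qf ((g⁻¹ : GL (Fin n) F) : Mn) ((y : Mn) *ᵥ v) = c * qf ((g⁻¹ : GL (Fin n) F) : Mn) v := by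
  rw [Helper95LBO2.qf_apply, Helper95LBO2.qf_apply, Matrix.mulVec_mulVec, ← Matrix.vecMul_transpose,
    ← Matrix.dotProduct_mulVec, Matrix.mulVec_mulVec, ← Matrix.mul_assoc, hy,
    Matrix.smul_mulVec, dotProduct_smul, smul_eq_mul]

theorem isoS_conj_simil (g y : GL (Fin n) F) (c : F) (hc : c ≠ 0)
    (hy : (y : Mn)ᵀ * ((g⁻¹ : GL (Fin n) F) : Mn) * (y : Mn) = c • ((g⁻¹ : GL (Fin n) F) : Mn))
    (s : SLn) (hs : s ∈ isoS (g : Mn)) : conjGL y s ∈ isoS (g : Mn) := by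
  have hs' := mem_isoS.1 hs
  -- `y g yᵀ = c • g`
  have hyy : (y : Mn) * ((y⁻¹ : GL (Fin n) F) : Mn) = 1 := gl_mul_inv y
  have hyy' : ((y⁻¹ : GL (Fin n) F) : Mn) * (y : Mn) = 1 := gl_inv_mul y
  have h1 : (y : Mn) * (g : Mn) * (y : Mn)ᵀ = c • (g : Mn) := by
    have h2 : (y : Mn) * (g : Mn) * (y : Mn)ᵀ * (((g⁻¹ : GL (Fin n) F) : Mn) * (y : Mn))
        = c • (y : Mn) := by
      calc (y : Mn) * (g : Mn) * (y : Mn)ᵀ * (((g⁻¹ : GL (Fin n) F) : Mn) * (y : Mn))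
          = (y : Mn) * (g : Mn) * ((y : Mn)ᵀ * ((g⁻¹ : GL (Fin n) F) : Mn) * (y : Mn)) := by
            simp only [Matrix.mul_assoc]
        _ = c • (y : Mn) := by
            rw [hy, Matrix.mul_smul, Matrix.mul_assoc, gl_mul_inv, Matrix.mul_one]
    calc (y : Mn) * (g : Mn) * (y : Mn)ᵀ
        = (y : Mn) * (g : Mn) * (y : Mn)ᵀ * (((g⁻¹ : GL (Fin n) F) : Mn) * (y : Mn))
            * (((y⁻¹ : GL (Fin n) F) : Mn) * (g : Mn)) := by
          have : (((g⁻¹ : GL (Fin n) F) : Mn) * (y : Mn)) * (((y⁻¹ : GL (Fin n) F) : Mn) * (g : Mn))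
              = 1 := by
            calc (((g⁻¹ : GL (Fin n) F) : Mn) * (y : Mn)) * (((y⁻¹ : GL (Fin n) F) : Mn) * (g : Mn))
                = ((g⁻¹ : GL (Fin n) F) : Mn) * ((y : Mn) * ((y⁻¹ : GL (Fin n) F) : Mn)) * (g : Mn) := by
                  simp only [Matrix.mul_assoc]
              _ = 1 := by rw [hyy, Matrix.mul_one, gl_inv_mul]
          rw [Matrix.mul_assoc _ _ (((y⁻¹ : GL (Fin n) F) : Mn) * (g : Mn)), this, Matrix.mul_one]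
      _ = c • (g : Mn) := by
          rw [h2, Matrix.smul_mul, ← Matrix.mul_assoc, hyy, Matrix.one_mul]
  -- `y⁻¹ g y⁻ᵀ = c⁻¹ • g`
  have h3 : ((y⁻¹ : GL (Fin n) F) : Mn) * (g : Mn) * (((y⁻¹ : GL (Fin n) F) : Mn))ᵀ
      = c⁻¹ • (g : Mn) := by
    have hyt : (y : Mn)ᵀ * (((y⁻¹ : GL (Fin n) F) : Mn))ᵀ = 1 := by
      rw [← Matrix.transpose_mul, hyy', Matrix.transpose_one]
    have h4 : (g : Mn) = c⁻¹ • ((y : Mn) * (g : Mn) * (y : Mn)ᵀ) := by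
      rw [h1, smul_smul, inv_mul_cancel₀ hc, one_smul]
    calc ((y⁻¹ : GL (Fin n) F) : Mn) * (g : Mn) * (((y⁻¹ : GL (Fin n) F) : Mn))ᵀ
        = ((y⁻¹ : GL (Fin n) F) : Mn) * (c⁻¹ • ((y : Mn) * (g : Mn) * (y : Mn)ᵀ))
            * (((y⁻¹ : GL (Fin n) F) : Mn))ᵀ := by rw [← h4]
      _ = c⁻¹ • ((((y⁻¹ : GL (Fin n) F) : Mn) * (y : Mn)) * (g : Mn)
            * ((y : Mn)ᵀ * (((y⁻¹ : GL (Fin n) F) : Mn))ᵀ)) := by
          rw [Matrix.mul_smul, Matrix.smul_mul]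
          simp only [Matrix.mul_assoc]
      _ = c⁻¹ • (g : Mn) := by rw [hyy', hyt, Matrix.one_mul, Matrix.mul_one]
  refine mem_isoS.2 ?_
  rw [conjGL_coe, Matrix.transpose_mul, Matrix.transpose_mul]
  calc (y : Mn) * (s : Mn) * ((y⁻¹ : GL (Fin n) F) : Mn) * (g : Mn)
        * ((((y⁻¹ : GL (Fin n) F) : Mn))ᵀ * ((s : Mn)ᵀ * (y : Mn)ᵀ))
      = (y : Mn) * (s : Mn) * (((y⁻¹ : GL (Fin n) F) : Mn) * (g : Mn)
        * (((y⁻¹ : GL (Fin n) F) : Mn))ᵀ) * (s : Mn)ᵀ * (y : Mn)ᵀ := by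
        simp only [Matrix.mul_assoc]
    _ = c⁻¹ • ((y : Mn) * ((s : Mn) * (g : Mn) * (s : Mn)ᵀ) * (y : Mn)ᵀ) := by
        rw [h3, Matrix.mul_smul, Matrix.smul_mul, Matrix.smul_mul]
        simp only [Matrix.mul_assoc]
    _ = (g : Mn) := by rw [hs', h1, smul_smul, inv_mul_cancel₀ hc, one_smul]

end Cfsg.Agent.Lib.Helper95LBX3
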