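import Mathlib
import Cfsg.Prelude
import Cfsg.Agent.Lib.Helper42LBDefs
import Cfsg.Agent.Lib.Helper42LBUDefs
import Cfsg.Agent.Lib.Helper95LBX3
import Cfsg.Agent.Lib.Helper7SU

set_option autoImplicit false
set_option linter.unusedSectionVars false

/-! PROJECT 42, PART 2, piece X2: isometries / similitudes of the descended form. -/

namespace Cfsg.Agent.Lib.Helper95LBX2

open Matrix Cfsg Cfsg.Agent.Lib.Helper50Aut Cfsg.Agent.Lib.Helper50UAut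
  Cfsg.Agent.Lib.Helper42BalA Cfsg.Agent.Lib.Helper49EichGen Cfsg.Agent.Lib.Helper42LBDefs
  Cfsg.Agent.Lib.Helper42LBUDefs

variable {F : Type*} [Field F] [Fintype F] {n : ℕ} {q : ℕ}
variable {F₀ : Type*} [Field F₀] [Fintype F₀]

local notation "SLn" => Matrix.SpecialLinearGroup (Fin n) F
local notation "Mn" => Matrix (Fin n) (Fin n) F
local notation "SL0" => Matrix.SpecialLinearGroup (Fin n) F₀
local notation "M0" => Matrix (Fin n) (Fin n) F₀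

lemma map_pow_eq (σ : F ≃+* F) (hσ : ∀ a, σ a = a ^ q) (A : Mn) :
    A.map (fun x => x ^ q) = A.map σ := by
  ext i k
  simp [hσ]

lemma map_j_fix (σ : F ≃+* F) (j : F₀ →+* F) (hj : ∀ a, σ a = a ↔ a ∈ Set.range j) (A : M0) :
    (A.map j).map σ = A.map j := by
  ext i k
  simp only [Matrix.map_apply]
  exact (hj _).2 ⟨_, rfl⟩

lemma map_mul_s (σ : F ≃+* F) (A B : Mn) : (A * B).map σ = A.map σ * B.map σ :=
  Matrix.map_mul (f := σ)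

/-- the general computation: `(P Y P⁻¹)ᵀ σ(P Y P⁻¹) = P⁻ᵀ (Yᵀ (Pᵀ σ P) Y) σ(P⁻¹)` for `σ Y = Y` -/
lemma gram_conj (σ : F ≃+* F) (P : GL (Fin n) F) (Y : Mn) (hY : Y.map σ = Y) :
    ((P : Mn) * Y * ((P⁻¹ : GL (Fin n) F) : Mn))ᵀ * ((P : Mn) * Y * ((P⁻¹ : GL (Fin n) F) : Mn)).map σ
      = (((P⁻¹ : GL (Fin n) F) : Mn))ᵀ * (Yᵀ * ((P : Mn)ᵀ * (P : Mn).map σ) * Y)
        * (((P⁻¹ : GL (Fin n) F) : Mn)).map σ := by
  rw [map_mul_s, map_mul_s, hY, Matrix.transpose_mul, Matrix.transpose_mul]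
  simp only [Matrix.mul_assoc]

lemma pinvT_mul (P : GL (Fin n) F) : (((P⁻¹ : GL (Fin n) F) : Mn))ᵀ * (P : Mn)ᵀ = 1 := by
  rw [← Matrix.transpose_mul, gl_mul_inv, Matrix.transpose_one]

lemma pT_mul_invT (P : GL (Fin n) F) : (P : Mn)ᵀ * (((P⁻¹ : GL (Fin n) F) : Mn))ᵀ = 1 := by
  rw [← Matrix.transpose_mul, gl_inv_mul, Matrix.transpose_one]

lemma pmap_mul (σ : F ≃+* F) (P : GL (Fin n) F) :
    (P : Mn).map σ * (((P⁻¹ : GL (Fin n) F) : Mn)).map σ = 1 := by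
  rw [← map_mul_s, gl_mul_inv]
  exact Matrix.map_one σ (map_zero σ) (map_one σ)

lemma pinvmap_mul (σ : F ≃+* F) (P : GL (Fin n) F) :
    (((P⁻¹ : GL (Fin n) F) : Mn)).map σ * (P : Mn).map σ = 1 := by
  rw [← map_mul_s, gl_inv_mul]
  exact Matrix.map_one σ (map_zero σ) (map_one σ)

/-- piece X2 (two statements) -/
theorem iso_le (hF : Fintype.card F = q ^ 2) (σ : F ≃+* F) (hσ : ∀ a, σ a = a ^ q)
    (j : F₀ →+* F) (hj : ∀ a, σ a = a ↔ a ∈ Set.range j) (P : GL (Fin n) F) (g₀ : GL (Fin n) F₀)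
    (κ : F) (hκ : κ ≠ 0)
    (hM : (P : Mn)ᵀ * (P : Mn).map σ = κ • ((g₀⁻¹ : GL (Fin n) F₀) : M0).map j)
    (s₀ : SL0) (hs₀ : s₀ ∈ isoS (g₀ : M0)) : embS j P s₀ ∈ Cfsg.SU n F q := by
  rw [Cfsg.Agent.Lib.Helper7SU.mem_SU_iff hF]
  unfold Cfsg.Agent.Lib.Helper7GU.IsU
  rw [map_pow_eq σ hσ]
  have hcoe : (embS j P s₀).1 = (P : Mn) * (s₀ : M0).map j * ((P⁻¹ : GL (Fin n) F) : Mn) :=
    embS_coe j P s₀
  rw [hcoe, gram_conj σ P _ (map_j_fix σ j hj _)]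
  -- `s₀ᵀ g₀⁻¹ s₀ = g₀⁻¹`
  have h1 : (s₀ : M0)ᵀ * ((g₀⁻¹ : GL (Fin n) F₀) : M0) * (s₀ : M0) = ((g₀⁻¹ : GL (Fin n) F₀) : M0) := by
    have h2 := Helper95LBX3.gram_dual (g₀⁻¹) ((s₀ : M0)ᵀ) (((s₀⁻¹ : SL0) : M0)ᵀ) (by
      rw [← Matrix.transpose_mul, ← Matrix.SpecialLinearGroup.coe_mul, inv_mul_cancel,
        Matrix.SpecialLinearGroup.coe_one, Matrix.transpose_one]) (by
      rw [inv_inv, Matrix.transpose_transpose]
      exact mem_isoS.1 hs₀)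
    rwa [Matrix.transpose_transpose] at h2
  have h3 : ((s₀ : M0).map j)ᵀ * (((g₀⁻¹ : GL (Fin n) F₀) : M0).map j) * (s₀ : M0).map j
      = ((g₀⁻¹ : GL (Fin n) F₀) : M0).map j := by
    rw [← Matrix.transpose_map, ← Matrix.map_mul (f := j), ← Matrix.map_mul (f := j), h1]
  rw [hM, Matrix.mul_smul, Matrix.smul_mul, h3, ← hM]
  calc (((P⁻¹ : GL (Fin n) F) : Mn))ᵀ * ((P : Mn)ᵀ * (P : Mn).map σ)
        * (((P⁻¹ : GL (Fin n) F) : Mn)).map σ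
      = ((((P⁻¹ : GL (Fin n) F) : Mn))ᵀ * (P : Mn)ᵀ) * ((P : Mn).map σ
        * (((P⁻¹ : GL (Fin n) F) : Mn)).map σ) := by simp only [Matrix.mul_assoc]
    _ = 1 := by rw [pinvT_mul, pmap_mul, Matrix.one_mul]

theorem iso_simil (hF : Fintype.card F = q ^ 2) (hn : 1 ≤ n) (σ : F ≃+* F) (hσ : ∀ a, σ a = a ^ q)
    (j : F₀ →+* F) (hj : ∀ a, σ a = a ↔ a ∈ Set.range j) (P : GL (Fin n) F) (g₀ : GL (Fin n) F₀)
    (κ : F) (hκ : κ ≠ 0)
    (hM : (P : Mn)ᵀ * (P : Mn).map σ = κ • ((g₀⁻¹ : GL (Fin n) F₀) : M0).map j)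
    (y₀ : GL (Fin n) F₀) (x : ↥(Cfsg.SU n F q)) (μ : F)
    (hx : ((x : SLn) : Mn) = μ • ((P : Mn) * (y₀ : M0).map j * ((P⁻¹ : GL (Fin n) F) : Mn))) :
    ∃ c : F₀, c ≠ 0 ∧ (y₀ : M0)ᵀ * ((g₀⁻¹ : GL (Fin n) F₀) : M0) * (y₀ : M0)
      = c • ((g₀⁻¹ : GL (Fin n) F₀) : M0) := by
  have hU := (Cfsg.Agent.Lib.Helper7SU.mem_SU_iff hF (x : SLn)).1 x.2
  unfold Cfsg.Agent.Lib.Helper7GU.IsU at hU
  rw [map_pow_eq σ hσ] at hU
  have hx' : (x : SLn).1 = μ • ((P : Mn) * (y₀ : M0).map j * ((P⁻¹ : GL (Fin n) F) : Mn)) := hx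
  have hsm : ∀ (a : F) (A : Mn), (a • A).map σ = σ a • A.map σ := by
    intro a A
    ext i k
    simp
  rw [hx', hsm, Matrix.transpose_smul, Matrix.smul_mul, Matrix.mul_smul, smul_smul,
    gram_conj σ P _ (map_j_fix σ j hj _), hM, Matrix.mul_smul, Matrix.smul_mul] at hU
  set G : Mn := ((g₀⁻¹ : GL (Fin n) F₀) : M0).map j with hG
  set Y : Mn := (y₀ : M0).map j with hY
  set ν : F := μ * σ μ with hν
  -- `ν • Yᵀ G Y = G`
  have h1 : ν • (Yᵀ * G * Y) = G := by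
    have h2 := congrArg (fun Z : Mn => (P : Mn)ᵀ * Z * (P : Mn).map σ) hU
    simp only [Matrix.mul_one, Matrix.mul_smul, Matrix.smul_mul] at h2
    have h3 : (P : Mn)ᵀ * ((((P⁻¹ : GL (Fin n) F) : Mn))ᵀ * (Yᵀ * G * Y)
        * (((P⁻¹ : GL (Fin n) F) : Mn)).map σ) * (P : Mn).map σ = Yᵀ * G * Y := by
      calc (P : Mn)ᵀ * ((((P⁻¹ : GL (Fin n) F) : Mn))ᵀ * (Yᵀ * G * Y)
            * (((P⁻¹ : GL (Fin n) F) : Mn)).map σ) * (P : Mn).map σ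
          = ((P : Mn)ᵀ * (((P⁻¹ : GL (Fin n) F) : Mn))ᵀ) * (Yᵀ * G * Y)
            * ((((P⁻¹ : GL (Fin n) F) : Mn)).map σ * (P : Mn).map σ) := by
            simp only [Matrix.mul_assoc]
        _ = Yᵀ * G * Y := by rw [pT_mul_invT, pinvmap_mul, Matrix.one_mul, Matrix.mul_one]
    rw [h3, hM, smul_comm] at h2
    exact smul_right_injective Mn hκ h2
  have hjinj : Function.Injective j := j.injective
  have hG0 : G ≠ 0 := by
    intro h0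
    have h4 : ((g₀⁻¹ : GL (Fin n) F₀) : M0) = 0 := by
      ext i k
      have := congrFun (congrFun h0 i) k
      simp only [hG, Matrix.map_apply, Matrix.zero_apply] at this
      exact (map_eq_zero j).1 this
    have h5 := gl_inv_mul g₀
    rw [h4, Matrix.zero_mul] at h5
    have := congrFun (congrFun h5 ⟨0, hn⟩) ⟨0, hn⟩
    simp at this
  have hν0 : ν ≠ 0 := by
    intro h0
    rw [h0, zero_smul] at h1
    exact hG0 h1.symm
  have hσσ : σ (σ μ) = μ := by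
    rw [hσ, hσ, ← pow_mul, ← sq, ← hF, FiniteField.pow_card]
  have hνfix : σ ν = ν := by
    rw [hν, map_mul, hσσ, mul_comm]
  obtain ⟨d, hd⟩ := (hj ν).1 hνfix
  have hd0 : d ≠ 0 := by
    rintro rfl
    rw [map_zero] at hd
    exact hν0 hd.symm
  have h6 : d • ((y₀ : M0)ᵀ * ((g₀⁻¹ : GL (Fin n) F₀) : M0) * (y₀ : M0))
      = ((g₀⁻¹ : GL (Fin n) F₀) : M0) := by
    have h7 : (d • ((y₀ : M0)ᵀ * ((g₀⁻¹ : GL (Fin n) F₀) : M0) * (y₀ : M0))).map j = G := by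
      have h8 : ((y₀ : M0)ᵀ * ((g₀⁻¹ : GL (Fin n) F₀) : M0) * (y₀ : M0)).map j = Yᵀ * G * Y := by
        rw [Matrix.map_mul (f := j), Matrix.map_mul (f := j), Matrix.transpose_map]
      have h9 : ∀ (a : F₀) (A : M0), (a • A).map j = j a • A.map j := by
        intro a A
        ext i k
        simp
      rw [h9, h8, hd, h1]
    ext i k
    have := congrFun (congrFun h7 i) k
    simp only [hG, Matrix.map_apply] at this
    exact hjinj this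
  refine ⟨d⁻¹, inv_ne_zero hd0, ?_⟩
  rw [← h6, smul_smul, inv_mul_cancel₀ hd0, one_smul, h6]

end Cfsg.Agent.Lib.Helper95LBX2
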