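import Mathlib
import Cfsg.Prelude
import Cfsg.Agent.Lib.Helper42LBDefs
import Cfsg.Agent.Lib.Helper42LBUDefs
import Cfsg.Agent.Lib.Helper95LBX2

set_option autoImplicit false
set_option linter.unusedSectionVars false

/-! PROJECT 42, PART 2, piece V2. -/

namespace Cfsg.Agent.Lib.Helper95LBV2

open Matrix Cfsg Cfsg.Agent.Lib.Helper50Aut Cfsg.Agent.Lib.Helper50UAut
  Cfsg.Agent.Lib.Helper42BalA Cfsg.Agent.Lib.Helper49EichGen Cfsg.Agent.Lib.Helper42LBDefs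
  Cfsg.Agent.Lib.Helper42LBUDefs Cfsg.Agent.Lib.Helper95LBX2

variable {F : Type*} [Field F] [Fintype F] {n : ℕ} {q : ℕ}
variable {F₀ : Type*} [Field F₀] [Fintype F₀]

local notation "SLn" => Matrix.SpecialLinearGroup (Fin n) F
local notation "Mn" => Matrix (Fin n) (Fin n) F
local notation "SL0" => Matrix.SpecialLinearGroup (Fin n) F₀
local notation "M0" => Matrix (Fin n) (Fin n) F₀
local notation "AutU" => MulAut (Cfsg.PSU n F q)
local notation "πU" => (QuotientGroup.mk : Cfsg.SU n F q → Cfsg.PSU n F q)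

/-- from `lam • (g σ(P)) = P`: `g σ(P) = lam⁻¹ • P` -/
lemma g_sigP (σ : F ≃+* F) (g P : GL (Fin n) F) (lam : F) (hlam : lam ≠ 0)
    (hP : lam • ((g : Mn) * (P : Mn).map σ) = (P : Mn)) :
    (g : Mn) * (P : Mn).map σ = lam⁻¹ • (P : Mn) := by
  have h := congrArg (fun Z : Mn => lam⁻¹ • Z) hP
  simp only [smul_smul, inv_mul_cancel₀ hlam, one_smul] at h
  exact h

/-- from `lam • (g σ(P)) = P`: `σ(P⁻¹) g⁻¹ = lam • P⁻¹` -/
lemma sigPinv_ginv (σ : F ≃+* F) (g P : GL (Fin n) F) (lam : F)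
    (hP : lam • ((g : Mn) * (P : Mn).map σ) = (P : Mn)) :
    (((P⁻¹ : GL (Fin n) F) : Mn)).map σ * ((g⁻¹ : GL (Fin n) F) : Mn)
      = lam • ((P⁻¹ : GL (Fin n) F) : Mn) := by
  have h1 : (lam • ((P⁻¹ : GL (Fin n) F) : Mn)) * ((g : Mn) * (P : Mn).map σ) = 1 := by
    rw [Matrix.smul_mul, ← Matrix.mul_smul, hP, gl_inv_mul]
  calc (((P⁻¹ : GL (Fin n) F) : Mn)).map σ * ((g⁻¹ : GL (Fin n) F) : Mn)
      = (lam • ((P⁻¹ : GL (Fin n) F) : Mn)) * ((g : Mn) * (P : Mn).map σ)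
          * ((((P⁻¹ : GL (Fin n) F) : Mn)).map σ * ((g⁻¹ : GL (Fin n) F) : Mn)) := by
        rw [h1, Matrix.one_mul]
    _ = (lam • ((P⁻¹ : GL (Fin n) F) : Mn)) * ((g : Mn) * ((P : Mn).map σ
          * (((P⁻¹ : GL (Fin n) F) : Mn)).map σ) * ((g⁻¹ : GL (Fin n) F) : Mn)) := by
        simp only [Matrix.mul_assoc]
    _ = lam • ((P⁻¹ : GL (Fin n) F) : Mn) := by
        rw [pmap_mul, Matrix.mul_one, gl_mul_inv, Matrix.mul_one]

/-- `g σ(P Y P⁻¹) g⁻¹ = P σ(Y) P⁻¹` -/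
lemma twist_conj (σ : F ≃+* F) (g P : GL (Fin n) F) (lam : F) (hlam : lam ≠ 0)
    (hP : lam • ((g : Mn) * (P : Mn).map σ) = (P : Mn)) (Y : Mn) :
    (g : Mn) * ((P : Mn) * Y * ((P⁻¹ : GL (Fin n) F) : Mn)).map σ * ((g⁻¹ : GL (Fin n) F) : Mn)
      = (P : Mn) * Y.map σ * ((P⁻¹ : GL (Fin n) F) : Mn) := by
  rw [map_mul_s, map_mul_s]
  calc (g : Mn) * ((P : Mn).map σ * Y.map σ * (((P⁻¹ : GL (Fin n) F) : Mn)).map σ)
        * ((g⁻¹ : GL (Fin n) F) : Mn)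
      = ((g : Mn) * (P : Mn).map σ) * Y.map σ * ((((P⁻¹ : GL (Fin n) F) : Mn)).map σ
        * ((g⁻¹ : GL (Fin n) F) : Mn)) := by simp only [Matrix.mul_assoc]
    _ = (P : Mn) * Y.map σ * ((P⁻¹ : GL (Fin n) F) : Mn) := by
        rw [g_sigP σ g P lam hlam hP, sigPinv_ginv σ g P lam hP, Matrix.smul_mul, Matrix.smul_mul,
          Matrix.mul_smul, smul_smul, inv_mul_cancel₀ hlam, one_smul]

/-- piece V2 -/
theorem imU_H2 (σ : F ≃+* F) (j : F₀ →+* F) (hj : ∀ a, σ a = a ↔ a ∈ Set.range j)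
    (g : Cfsg.GU n F q) (P : GL (Fin n) F) (lam : F) (hlam : lam ≠ 0)
    (hP : lam • ((g.1 : Mn) * (P : Mn).map σ) = (P : Mn)) (S₀ : Subgroup SL0)
    (s : ↥(Cfsg.SU n F q)) (hs : s ∈ imU q j P S₀) : (cU g * fU σ : AutU) (πU s) = πU s := by
  obtain ⟨s₀, -, hs₀⟩ := mem_imU.1 hs
  rw [MulAut.mul_apply, fU_mk, cU_mk]
  congr 1
  apply Subtype.ext
  apply Subtype.ext
  rw [conjSU_coe, mapSU_coe]
  have h1 : (s.1 : Mn) = (P : Mn) * (s₀ : M0).map j * ((P⁻¹ : GL (Fin n) F) : Mn) := by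
    rw [← hs₀]
    exact embS_coe j P s₀
  have h2 := twist_conj σ g.1 P lam hlam hP ((s₀ : M0).map j)
  rw [map_j_fix σ j hj, ← h1] at h2
  exact h2

end Cfsg.Agent.Lib.Helper95LBV2
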