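import Mathlib
import Cfsg.Prelude
import Cfsg.Agent.Lib.Helper42LBDefs
import Cfsg.Agent.Lib.Helper42LBUDefs
import Cfsg.Agent.Lib.Helper7SUCenter

set_option autoImplicit false
set_option linter.unusedSectionVars false

/-! PROJECT 42, PART 2, piece V3: transport of `H3` along `s₀ ↦ P j(s₀) P⁻¹`. -/

namespace Cfsg.Agent.Lib.Helper95LBV3

open Matrix Cfsg Cfsg.Agent.Lib.Helper50Aut Cfsg.Agent.Lib.Helper50UAut
  Cfsg.Agent.Lib.Helper42BalA Cfsg.Agent.Lib.Helper49EichGen Cfsg.Agent.Lib.Helper42LBDefs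
  Cfsg.Agent.Lib.Helper42LBUDefs

variable {F : Type*} [Field F] [Fintype F] {n : ℕ} {q : ℕ}
variable {F₀ : Type*} [Field F₀] [Fintype F₀]

local notation "SLn" => Matrix.SpecialLinearGroup (Fin n) F
local notation "Mn" => Matrix (Fin n) (Fin n) F
local notation "SL0" => Matrix.SpecialLinearGroup (Fin n) F₀
local notation "M0" => Matrix (Fin n) (Fin n) F₀
local notation "AutU" => MulAut (Cfsg.PSU n F q)
local notation "πU" => (QuotientGroup.mk : Cfsg.SU n F q → Cfsg.PSU n F q)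
local notation "π₀" => (QuotientGroup.mk : Matrix.SpecialLinearGroup (Fin n) F₀ →
  Matrix.SpecialLinearGroup (Fin n) F₀ ⧸ Subgroup.center (Matrix.SpecialLinearGroup (Fin n) F₀))

/-- `πU s = 1` iff `s` is a scalar matrix -/
lemma piU_eq_one_iff (hF : Fintype.card F = q ^ 2) (hn : 1 ≤ n) (s : ↥(Cfsg.SU n F q)) :
    πU s = 1 ↔ ∃ c : F, ((s : SLn) : Mn) = c • (1 : Mn) := by
  rw [QuotientGroup.eq_one_iff]
  constructor
  · intro h
    have hsc := Cfsg.Agent.Lib.Helper7SUCenter.eq_scalar_of_commute hF s.1.1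
      (Cfsg.Agent.Lib.Helper7SUCenter.commute_of_mem_center hF s h) ⟨0, hn⟩
    refine ⟨s.1.1 ⟨0, hn⟩ ⟨0, hn⟩, ?_⟩
    rw [Matrix.smul_one_eq_diagonal, ← Matrix.scalar_apply]
    exact hsc
  · rintro ⟨c, hc⟩
    rw [Subgroup.mem_center_iff]
    intro g
    apply Subtype.ext
    apply Subtype.ext
    show ((g : SLn) : Mn) * ((s : SLn) : Mn) = ((s : SLn) : Mn) * ((g : SLn) : Mn)
    rw [hc, Matrix.mul_smul, Matrix.smul_mul, Matrix.mul_one, Matrix.one_mul]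

/-- `π₀ s₀ = 1` iff `s₀` is a scalar matrix -/
lemma pi0_eq_one_iff (s₀ : SL0) : π₀ s₀ = 1 ↔ ∃ c : F₀, (s₀ : M0) = c • (1 : M0) := by
  rw [QuotientGroup.eq_one_iff, Matrix.SpecialLinearGroup.mem_center_iff]
  constructor
  · rintro ⟨r, -, hr⟩
    refine ⟨r, ?_⟩
    rw [← hr, Matrix.scalar_apply, Matrix.smul_one_eq_diagonal]
  · rintro ⟨c, hc⟩
    refine ⟨c, ?_, ?_⟩
    · have := s₀.2
      rw [hc, Matrix.det_smul, Matrix.det_one, mul_one] at this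
      exact this
    · rw [hc, Matrix.scalar_apply, Matrix.smul_one_eq_diagonal]

lemma embS_scalar_iff (hn : 1 ≤ n) (j : F₀ →+* F) (P : GL (Fin n) F) (s₀ : SL0) :
    (∃ c : F, (embS j P s₀ : Mn) = c • (1 : Mn)) ↔ ∃ c : F₀, (s₀ : M0) = c • (1 : M0) := by
  rw [embS_coe]
  constructor
  · rintro ⟨c, hc⟩
    have h1 : (s₀ : M0).map j = c • (1 : Mn) := by
      calc (s₀ : M0).map j
          = (((P⁻¹ : GL (Fin n) F) : Mn) * (P : Mn)) * (s₀ : M0).map j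
            * (((P⁻¹ : GL (Fin n) F) : Mn) * (P : Mn)) := by
            rw [gl_inv_mul, Matrix.one_mul, Matrix.mul_one]
        _ = ((P⁻¹ : GL (Fin n) F) : Mn) * ((P : Mn) * (s₀ : M0).map j
            * ((P⁻¹ : GL (Fin n) F) : Mn)) * (P : Mn) := by simp only [Matrix.mul_assoc]
        _ = c • (1 : Mn) := by
            rw [hc, Matrix.mul_smul, Matrix.mul_one, Matrix.smul_mul, gl_inv_mul]
    refine ⟨(s₀ : M0) ⟨0, hn⟩ ⟨0, hn⟩, ?_⟩
    have h0 : j ((s₀ : M0) ⟨0, hn⟩ ⟨0, hn⟩) = c := by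
      have := congrFun (congrFun h1 ⟨0, hn⟩) ⟨0, hn⟩
      simpa using this
    ext i k
    apply j.injective
    have := congrFun (congrFun h1 i) k
    rw [Matrix.map_apply] at this
    rw [this, Matrix.smul_apply, Matrix.smul_apply, smul_eq_mul, smul_eq_mul, map_mul, h0,
      Matrix.one_apply, Matrix.one_apply]
    split_ifs <;> simp
  · rintro ⟨c, hc⟩
    refine ⟨j c, ?_⟩
    have h1 : (s₀ : M0).map j = j c • (1 : Mn) := by
      rw [hc]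
      ext i k
      simp only [Matrix.map_apply, Matrix.smul_apply, smul_eq_mul, map_mul, Matrix.one_apply]
      split_ifs <;> simp
    rw [h1, Matrix.mul_smul, Matrix.mul_one, Matrix.smul_mul, gl_mul_inv]

lemma piU_embS_iff (hF : Fintype.card F = q ^ 2) (hn : 1 ≤ n) (j : F₀ →+* F) (P : GL (Fin n) F)
    (s₀ : SL0) (s : ↥(Cfsg.SU n F q)) (hs : embS j P s₀ = (s : SLn)) :
    πU s = 1 ↔ π₀ s₀ = 1 := by
  rw [piU_eq_one_iff hF hn, pi0_eq_one_iff, ← embS_scalar_iff hn j P, hs]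

/-- the surjection `S₀ → imU q j P S₀` -/
noncomputable def eHom (j : F₀ →+* F) (P : GL (Fin n) F) (S₀ : Subgroup SL0)
    (hle : ∀ s₀ ∈ S₀, embS j P s₀ ∈ Cfsg.SU n F q) : ↥S₀ →* ↥(imU q j P S₀) where
  toFun s₀ := ⟨⟨embS j P s₀.1, hle s₀.1 s₀.2⟩, mem_imU.2 ⟨s₀.1, s₀.2, rfl⟩⟩
  map_one' := by
    apply Subtype.ext
    apply Subtype.ext
    exact map_one _
  map_mul' a b := by
    apply Subtype.ext
    apply Subtype.ext
    exact map_mul _ _ _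

lemma eHom_coe (j : F₀ →+* F) (P : GL (Fin n) F) (S₀ : Subgroup SL0)
    (hle : ∀ s₀ ∈ S₀, embS j P s₀ ∈ Cfsg.SU n F q) (s₀ : ↥S₀) :
    embS j P s₀.1 = (((eHom j P S₀ hle s₀ : ↥(imU q j P S₀)) : ↥(Cfsg.SU n F q)) : SLn) := rfl

lemma eHom_surjective (j : F₀ →+* F) (P : GL (Fin n) F) (S₀ : Subgroup SL0)
    (hle : ∀ s₀ ∈ S₀, embS j P s₀ ∈ Cfsg.SU n F q) :
    Function.Surjective (eHom (q := q) j P S₀ hle) := by
  intro s
  obtain ⟨s₀, hs₀, e⟩ := mem_imU.1 s.2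
  refine ⟨⟨s₀, hs₀⟩, ?_⟩
  apply Subtype.ext
  apply Subtype.ext
  exact e

/-- piece V3 (two statements) -/
theorem imU_H3 (hF : Fintype.card F = q ^ 2) (hn : 3 ≤ n) (p : ℕ) (hp : p.Prime) (j : F₀ →+* F)
    (P : GL (Fin n) F) (S₀ : Subgroup SL0) (hle : ∀ s₀ ∈ S₀, embS j P s₀ ∈ Cfsg.SU n F q)
    (H3₀ : ∀ N₀ : Subgroup ↥S₀, N₀.Normal →
      (∀ x ∈ N₀, π₀ (x : SL0) = 1) ∨ ∃ t ∈ N₀, orderOf (π₀ (t : SL0)) = p)
    (N : Subgroup ↥(imU q j P S₀)) (hN : N.Normal) :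
    (∀ x ∈ N, πU (x : ↥(Cfsg.SU n F q)) = 1) ∨
      ∃ t ∈ N, orderOf (πU (t : ↥(Cfsg.SU n F q))) = p := by
  have : Fact p.Prime := ⟨hp⟩
  have hn1 : 1 ≤ n := by omega
  rcases H3₀ (N.comap (eHom j P S₀ hle)) (hN.comap _) with h | ⟨t, ht, ho⟩
  · left
    intro x hx
    obtain ⟨x₀, rfl⟩ := eHom_surjective j P S₀ hle x
    exact (piU_embS_iff hF hn1 j P x₀.1 _ (eHom_coe j P S₀ hle x₀)).2 (h x₀ hx)
  · right
    refine ⟨eHom j P S₀ hle t, ht, ?_⟩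
    rw [orderOf_eq_prime_iff] at ho ⊢
    obtain ⟨h1, h2⟩ := ho
    constructor
    · have h3 : π₀ ((t ^ p : ↥S₀) : SL0) = 1 := h1
      have h4 := (piU_embS_iff hF hn1 j P (t ^ p : ↥S₀).1 _ (eHom_coe j P S₀ hle (t ^ p))).2 h3
      rw [map_pow] at h4
      exact h4
    · intro h5
      exact h2 ((piU_embS_iff hF hn1 j P t.1 _ (eHom_coe j P S₀ hle t)).1 h5)

theorem imU_ne (hF : Fintype.card F = q ^ 2) (hn : 3 ≤ n) (j : F₀ →+* F)
    (P : GL (Fin n) F) (S₀ : Subgroup SL0) (hle : ∀ s₀ ∈ S₀, embS j P s₀ ∈ Cfsg.SU n F q)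
    (hne : ∃ s₀ ∈ S₀, π₀ s₀ ≠ 1) : ∃ s ∈ imU q j P S₀, πU s ≠ 1 := by
  obtain ⟨s₀, hs₀, h1⟩ := hne
  refine ⟨⟨embS j P s₀, hle s₀ hs₀⟩, mem_imU.2 ⟨s₀, hs₀, rfl⟩, fun h => h1 ?_⟩
  exact (piU_embS_iff hF (by omega) j P s₀ _ rfl).1 h

end Cfsg.Agent.Lib.Helper95LBV3
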