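import Cfsg.Agent.Lib.Helper50UOut
import Cfsg.Agent.Lib.Helper50H90
import Cfsg.Agent.Lib.Helper50HermM
import Cfsg.Agent.Lib.Helper50Cent
import Cfsg.Agent.Lib.Helper50Split

set_option autoImplicit false

namespace Cfsg.Agent.Lib.Helper50UH90

open Matrix Cfsg.Agent.Lib.Helper95SUStd Cfsg.Agent.Lib.Helper7Herm Cfsg.Agent.Lib.Helper7GU
  Cfsg.Agent.Lib.Helper50H90 Cfsg.Agent.Lib.Helper50HermM

variable {F : Type*} [Field F] {q : ℕ} {n : ℕ}

local notation "Mn" => Matrix (Fin n) (Fin n) F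

section

variable [Fintype F] (hF : Fintype.card F = q ^ 2)

/-- the `q`-power map as a ring automorphism -/
noncomputable def sigE : F ≃+* F :=
  { sig hF with
    invFun := sig hF
    left_inv := sig_sig hF
    right_inv := sig_sig hF }

lemma sigE_apply (x : F) : sigE hF x = x ^ q := sig_apply hF x

lemma sigE_sigE (x : F) : sigE hF (sigE hF x) = x := sig_sig hF x

lemma sigE_ne_one : sigE hF ≠ 1 := by
  intro h
  apply sig_ne_id hF
  ext x
  exact congrFun (congrArg DFunLike.coe h) x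

lemma isU_iff (M : Mn) : IsU n F q M ↔ Mᵀ * M.map (sig hF) = 1 := by
  have : M.map (fun x => x ^ q) = M.map (sig hF) := by ext a b; simp [sig_apply]
  unfold IsU
  rw [this]

end

lemma map_mulE (τ : F ≃+* F) (A B : Mn) : (A * B).map τ = A.map τ * B.map τ :=
  Matrix.map_mul (f := (τ : F →+* F))

lemma map_oneE (τ : F ≃+* F) : (1 : Mn).map τ = 1 :=
  Matrix.map_one (τ : F →+* F) (map_zero _) (map_one _)

lemma map_oneH {R S : Type*} [Semiring R] [Semiring S] (f : R →+* S) :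
    (1 : Matrix (Fin n) (Fin n) R).map f = 1 :=
  Matrix.map_one f (map_zero _) (map_one _)

/-- matrices fixed by `τ` descend to the fixed field -/
lemma descend {F₀ : Type*} [Field F₀] (τ : F ≃+* F) (j : F₀ →+* F)
    (hj : ∀ a, τ a = a ↔ a ∈ Set.range j) (Y : Mn) (hY : Y.map τ = Y) :
    ∃ Y₀ : Matrix (Fin n) (Fin n) F₀, Y₀.map j = Y := by
  have h1 : ∀ a b, ∃ c, j c = Y a b := by
    intro a b
    exact (hj _).1 (congrFun (congrFun hY a) b)
  choose Y₀ hY₀ using h1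
  exact ⟨Matrix.of Y₀, by ext a b; exact hY₀ a b⟩

lemma map_j_fixed {F₀ : Type*} [Field F₀] (τ : F ≃+* F) (j : F₀ →+* F)
    (hj : ∀ a, τ a = a ↔ a ∈ Set.range j) (A : Matrix (Fin n) (Fin n) F₀) :
    (A.map j).map τ = A.map j := by
  ext a b
  exact (hj _).2 ⟨_, rfl⟩

/-- **Hilbert 90 for the unitary group** -/
theorem hilbert90_U [Fintype F] (hF : Fintype.card F = q ^ 2) (τ : F ≃+* F) (r : ℕ)
    (hr : orderOf τ = r) (hr0 : 0 < r)
    {F₀ : Type*} [Field F₀] [Fintype F₀] {q₀ : ℕ} (hF₀ : Fintype.card F₀ = q₀ ^ 2)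
    (j : F₀ →+* F) (hj : ∀ a, τ a = a ↔ a ∈ Set.range j) (hjq : ∀ x : F₀, j x ^ q = j (x ^ q₀))
    (g : Mn) (hg : IsU n F q g) (hN : NkM τ g r = 1) :
    ∃ h : Mn, IsU n F q h ∧ g * h.map τ = h := by
  obtain ⟨M, M', e1, e2, e3⟩ := hilbert90_matrix τ r hr hr0 g hN
  rw [isU_iff hF] at hg
  set s : F →+* F := sig hF with hs
  set s₀ : F₀ →+* F₀ := sig hF₀ with hs₀
  have hcomm : ∀ A : Mn, (A.map τ).map s = (A.map s).map τ := by
    intro A; ext a b; simp [s, sig_apply]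
  have hss : ∀ A : Mn, (A.map s).map s = A := by
    intro A; ext a b; exact sig_sig hF _
  have hjs : ∀ A : Matrix (Fin n) (Fin n) F₀, (A.map j).map s = (A.map s₀).map j := by
    intro A; ext a b
    simp only [Matrix.map_apply, s, s₀, sig_apply, hjq]
  let Y : Mn := Mᵀ * M.map s
  have hY1 : Y = (M.map τ)ᵀ * (M.map τ).map s := by
    show Mᵀ * M.map s = _
    conv_lhs => rw [← e3]
    rw [Matrix.transpose_mul, Matrix.map_mul]
    calc (M.map τ)ᵀ * gᵀ * (g.map s * (M.map τ).map s)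
        = (M.map τ)ᵀ * (gᵀ * g.map s) * (M.map τ).map s := by simp only [mul_assoc]
      _ = _ := by rw [hg, mul_one]
  have hYτ : Y.map τ = Y := by
    conv_rhs => rw [hY1]
    show (Mᵀ * M.map s).map τ = _
    rw [map_mulE, hcomm]
    rfl
  obtain ⟨Y₀, hY₀⟩ := descend τ j hj Y hYτ
  have hYh : (Y.map s)ᵀ = Y := by
    show ((Mᵀ * M.map s).map s)ᵀ = Mᵀ * M.map s
    rw [Matrix.map_mul, hss, Matrix.transpose_mul]
    rfl
  have hY₀h : (Y₀.map s₀)ᵀ = Y₀ := by
    apply Matrix.map_injective j.injective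
    show (((Y₀.map s₀).map j)ᵀ) = Y₀.map j
    rw [← hjs, hY₀, hYh]
  have hYinv : Y * (M'.map s * M'ᵀ) = 1 := by
    calc Y * (M'.map s * M'ᵀ) = Mᵀ * (M.map s * M'.map s) * M'ᵀ := by
          show Mᵀ * M.map s * _ = _
          simp only [mul_assoc]
      _ = 1 := by
          rw [← Matrix.map_mul, e1, map_oneH, mul_one, ← Matrix.transpose_mul, e2,
            Matrix.transpose_one]
  have hdet : Y₀.det ≠ 0 := by
    intro h0
    apply Matrix.det_ne_zero_of_right_inverse hYinv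
    rw [← hY₀, ← RingHom.mapMatrix_apply, ← RingHom.map_det, h0, map_zero]
  obtain ⟨B, B', b1, b2, b3⟩ := hermitian_matrix_eq (sigE hF₀) (sigE_ne_one hF₀) (sigE_sigE hF₀)
    Y₀ Y₀⁻¹ (Matrix.mul_nonsing_inv Y₀ (isUnit_iff_ne_zero.2 hdet)) hY₀h
  have b3' : Y₀ = B * (B.map s₀)ᵀ := b3
  refine ⟨M * (B'ᵀ).map j, ?_, ?_⟩
  · rw [isU_iff hF]
    rw [Matrix.transpose_mul, Matrix.map_mul, hjs]
    calc ((B'ᵀ).map j)ᵀ * Mᵀ * (M.map s * ((B'ᵀ).map s₀).map j)
        = B'.map j * Y * ((B'ᵀ).map s₀).map j := by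
          show _ = B'.map j * (Mᵀ * M.map s) * _
          simp only [mul_assoc]
          rfl
      _ = (B' * (B * (B.map s₀)ᵀ) * (B'ᵀ).map s₀).map j := by
          rw [← hY₀, b3', Matrix.map_mul, Matrix.map_mul]
          conv_rhs => rw [Matrix.map_mul, Matrix.map_mul]
      _ = ((B' * B) * ((B' * B).map s₀)ᵀ).map j := by
          congr 1
          rw [Matrix.map_mul, Matrix.transpose_mul]
          simp only [mul_assoc]
          rfl
      _ = 1 := by
          rw [b2, map_oneH, Matrix.transpose_one, mul_one, map_oneH]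
  · rw [map_mulE, map_j_fixed τ j hj, ← mul_assoc, e3]


lemma NkM_one (τ : F ≃+* F) (k : ℕ) : NkM τ (1 : Mn) k = 1 := by
  induction k with
  | zero => rfl
  | succ k ih =>
    simp only [NkM, ih, one_mul]
    exact map_oneE τ

/-- Hilbert 90 for the norm one group -/
theorem hilbert90_CC [Fintype F] (hF : Fintype.card F = q ^ 2) (τ : F ≃+* F) (r : ℕ)
    (hr : orderOf τ = r) (hr0 : 0 < r)
    {F₀ : Type*} [Field F₀] [Fintype F₀] {q₀ : ℕ} (hF₀ : Fintype.card F₀ = q₀ ^ 2)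
    (j : F₀ →+* F) (hj : ∀ a, τ a = a ↔ a ∈ Set.range j) (hjq : ∀ x : F₀, j x ^ q = j (x ^ q₀))
    (c : F) (hc : c ^ (q + 1) = 1) (hN : Nk τ c r = 1) :
    ∃ μ : F, μ ^ (q + 1) = 1 ∧ c * τ μ = μ := by
  have hq := two_le_q hF
  have h1 : NkM τ (c • (1 : Matrix (Fin 1) (Fin 1) F)) r = 1 := by
    rw [NkM_smul, hN, one_smul, NkM_one]
  have h2 : IsU 1 F q (c • (1 : Matrix (Fin 1) (Fin 1) F)) := by
    have := Cfsg.Agent.Lib.Helper7SUCenter.isU_scalar (n := 1) (q := q) (by omega) c hc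
    rwa [Matrix.scalar_apply, ← Matrix.smul_one_eq_diagonal] at this
  obtain ⟨h, hU, e⟩ := hilbert90_U hF τ r hr hr0 hF₀ j hj hjq _ h2 h1
  refine ⟨h 0 0, ?_, ?_⟩
  · have := congrFun (congrFun hU 0) 0
    rw [Matrix.mul_apply] at this
    simp only [Finset.univ_unique, Fin.default_eq_zero, Matrix.transpose_apply, Matrix.map_apply,
      Finset.sum_singleton, Matrix.one_apply_eq] at this
    rw [pow_succ', this]
  · have := congrFun (congrFun e 0) 0
    rw [Matrix.mul_apply] at this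
    simpa using this

theorem norm_surj_abstract {A : Type*} [CommGroup A] [Finite A] (N D : A →* A)
    (h1 : D.range = N.ker) (h2 : N.range ≤ D.ker) : N.range = D.ker := by
  apply Subgroup.eq_of_le_of_card_ge h2
  have e1 := Subgroup.card_mul_index N.ker
  have e2 := Subgroup.card_mul_index D.ker
  rw [Subgroup.index_ker] at e1 e2
  rw [← h1] at e1
  have e3 : Nat.card D.range * Nat.card N.range = Nat.card D.range * Nat.card D.ker := by
    rw [e1, mul_comm, e2]
  exact (Nat.eq_of_mul_eq_mul_left Nat.card_pos e3).ge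

lemma Nk_pow (τ : F ≃+* F) (c : F) (m k : ℕ) : Nk τ c k ^ m = Nk τ (c ^ m) k := by
  induction k with
  | zero => simp [Nk]
  | succ k ih => simp only [Nk, mul_pow, ← map_pow, ih]

lemma Nk_div (τ : F ≃+* F) (l : F) (hl : l ≠ 0) (k : ℕ) :
    Nk τ (l * (τ l)⁻¹) k = l * ((τ ^ k) l)⁻¹ := by
  induction k with
  | zero => simp [Nk, hl]
  | succ k ih =>
    simp only [Nk, ih, map_mul, map_inv₀, ← pow_succ_apply]
    have h3 : τ l ≠ 0 := (map_ne_zero τ).2 hl
    field_simp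

/-- surjectivity of the norm on norm one groups -/
theorem norm_surj_CC [Fintype F] (hF : Fintype.card F = q ^ 2) (τ : F ≃+* F) (r : ℕ)
    (hr : orderOf τ = r) (hr0 : 0 < r)
    {F₀ : Type*} [Field F₀] [Fintype F₀] {q₀ : ℕ} (hF₀ : Fintype.card F₀ = q₀ ^ 2)
    (j : F₀ →+* F) (hj : ∀ a, τ a = a ↔ a ∈ Set.range j) (hjq : ∀ x : F₀, j x ^ q = j (x ^ q₀))
    (z : F) (hz : z ^ (q + 1) = 1) (hfix : τ z = z) :
    ∃ l : F, l ^ (q + 1) = 1 ∧ Nk τ l r = z := by
  have hτr : τ ^ r = 1 := by rw [← hr]; exact pow_orderOf_eq_one τ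
  let A := {c : Fˣ // (c : F) ^ (q + 1) = 1}
  let C : Subgroup Fˣ := Cfsg.Agent.Lib.Helper50UOut.CC F q
  have hC : ∀ c : Fˣ, c ∈ C ↔ (c : F) ^ (q + 1) = 1 := Cfsg.Agent.Lib.Helper50UOut.mem_CC
  let N : C →* C :=
    { toFun := fun l => ⟨Units.mk0 (Nk τ l.1 r) (Nk_ne_zero τ l.1.ne_zero r), by
        rw [hC]
        show Nk τ l.1 r ^ (q + 1) = 1
        rw [Nk_pow, (hC l.1).1 l.2, Nk_one]⟩
      map_one' := by ext; simp [Nk_one]
      map_mul' := fun a b => by ext; simp [Nk_mul] }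
  let D : C →* C :=
    { toFun := fun l => ⟨l.1 / Units.map (τ : F →* F) l.1, by
        rw [hC, Units.val_div_eq_div_val, div_pow, (hC l.1).1 l.2]
        show 1 / (τ (l.1 : F)) ^ (q + 1) = 1
        rw [← map_pow, (hC l.1).1 l.2, map_one, div_one]⟩
      map_one' := by ext; simp
      map_mul' := fun a b => by
        apply Subtype.ext
        show (a.1 * b.1) / Units.map (τ : F →* F) (a.1 * b.1) = _
        rw [map_mul, mul_div_mul_comm]
        rfl }
  have h1 : D.range = N.ker := by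
    ext x
    rw [MonoidHom.mem_ker]
    constructor
    · rintro ⟨l, rfl⟩
      apply Subtype.ext
      ext
      show Nk τ ((l.1 / Units.map (τ : F →* F) l.1 : Fˣ) : F) r = 1
      have e1 : ((l.1 / Units.map (τ : F →* F) l.1 : Fˣ) : F) = (l.1 : F) * (τ (l.1 : F))⁻¹ := by
        rw [Units.val_div_eq_div_val, div_eq_mul_inv]; rfl
      rw [e1, Nk_div τ _ l.1.ne_zero, hτr]
      exact mul_inv_cancel₀ l.1.ne_zero
    · intro hx
      have hx' : Nk τ (x.1 : F) r = 1 := congrArg (fun y : C => (y.1 : F)) hx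
      obtain ⟨μ, hμ, e⟩ := hilbert90_CC hF τ r hr hr0 hF₀ j hj hjq _ ((hC x.1).1 x.2) hx'
      have hμ0 : μ ≠ 0 := by
        rintro rfl
        rw [zero_pow (by omega)] at hμ
        exact zero_ne_one hμ
      refine ⟨⟨Units.mk0 μ hμ0, (hC _).2 hμ⟩, ?_⟩
      apply Subtype.ext
      ext
      show ((Units.mk0 μ hμ0 / Units.map (τ : F →* F) (Units.mk0 μ hμ0) : Fˣ) : F) = x.1
      rw [Units.val_div_eq_div_val]
      show μ / τ μ = x.1
      have h3 : τ μ ≠ 0 := (map_ne_zero τ).2 hμ0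
      field_simp
      linear_combination (-1 : F) * e
  have h2 : N.range ≤ D.ker := by
    rintro _ ⟨l, rfl⟩
    rw [MonoidHom.mem_ker]
    apply Subtype.ext
    show (N l).1 / Units.map (τ : F →* F) (N l).1 = 1
    rw [div_eq_one]
    ext
    exact (Nk_fixed τ r hτr l.1.ne_zero).symm
  have h3 := norm_surj_abstract N D h1 h2
  have hz0 : z ≠ 0 := by
    rintro rfl
    rw [zero_pow (by omega)] at hz
    exact zero_ne_one hz
  have h4 : (⟨Units.mk0 z hz0, (hC _).2 hz⟩ : C) ∈ D.ker := by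
    rw [MonoidHom.mem_ker]
    apply Subtype.ext
    show Units.mk0 z hz0 / Units.map (τ : F →* F) (Units.mk0 z hz0) = 1
    rw [div_eq_one]
    ext
    exact hfix.symm
  rw [← h3] at h4
  obtain ⟨l, hl⟩ := h4
  exact ⟨l.1, (hC l.1).1 l.2, congrArg (fun y : C => (y.1 : F)) hl⟩

end Cfsg.Agent.Lib.Helper50UH90
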