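import Mathlib
import Cfsg.Prelude
import Cfsg.Agent.Lib.Helper42LBDefs
import Cfsg.Agent.Lib.Helper42LBUDefs
import Cfsg.Agent.Lib.Helper95LBV2
import Cfsg.Agent.Lib.Helper7SUCenter
import Cfsg.Agent.Lib.Helper50Cent
import Cfsg.Agent.Lib.Helper50UH90

set_option autoImplicit false
set_option linter.unusedSectionVars false

/-! PROJECT 42, PART 2, piece V4. -/

namespace Cfsg.Agent.Lib.Helper95LBV4

open Matrix Cfsg Cfsg.Agent.Lib.Helper50Aut Cfsg.Agent.Lib.Helper50UAut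
  Cfsg.Agent.Lib.Helper42BalA Cfsg.Agent.Lib.Helper49EichGen Cfsg.Agent.Lib.Helper42LBDefs
  Cfsg.Agent.Lib.Helper42LBUDefs Cfsg.Agent.Lib.Helper95LBX2 Cfsg.Agent.Lib.Helper95LBV2

variable {F : Type*} [Field F] [Fintype F] {n : ℕ} {q : ℕ}
variable {F₀ : Type*} [Field F₀] [Fintype F₀]

local notation "SLn" => Matrix.SpecialLinearGroup (Fin n) F
local notation "Mn" => Matrix (Fin n) (Fin n) F
local notation "SL0" => Matrix.SpecialLinearGroup (Fin n) F₀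
local notation "M0" => Matrix (Fin n) (Fin n) F₀
local notation "AutU" => MulAut (Cfsg.PSU n F q)
local notation "πU" => (QuotientGroup.mk : Cfsg.SU n F q → Cfsg.PSU n F q)

/-- a fixed point `πU x` of `cU g * fU σ`: `x` is, up to a scalar, `P j(y₀) P⁻¹` -/
theorem exists_descent (hF : Fintype.card F = q ^ 2) (hn : 1 ≤ n) (σ : F ≃+* F) (j : F₀ →+* F)
    (hj : ∀ a, σ a = a ↔ a ∈ Set.range j)
    (g : Cfsg.GU n F q) (P : GL (Fin n) F) (lam : F) (hlam : lam ≠ 0)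
    (hP : lam • ((g.1 : Mn) * (P : Mn).map σ) = (P : Mn))
    (x : ↥(Cfsg.SU n F q)) (hk : (cU g * fU σ : AutU) (πU x) = πU x) :
    ∃ (y₀ : GL (Fin n) F₀) (μ : F), μ ≠ 0 ∧
      ((x : SLn) : Mn) = μ • ((P : Mn) * (y₀ : M0).map j * ((P⁻¹ : GL (Fin n) F) : Mn)) := by
  rw [MulAut.mul_apply, fU_mk, cU_mk] at hk
  have h1 := QuotientGroup.eq.1 hk
  set zc : ↥(Cfsg.SU n F q) := (conjSU g (mapSU σ x))⁻¹ * x with hzc
  have hsc := Cfsg.Agent.Lib.Helper7SUCenter.eq_scalar_of_commute hF zc.1.1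
    (Cfsg.Agent.Lib.Helper7SUCenter.commute_of_mem_center hF zc h1) ⟨0, hn⟩
  set c : F := zc.1.1 ⟨0, hn⟩ ⟨0, hn⟩ with hc
  have hx1 : x = conjSU g (mapSU σ x) * zc := by rw [hzc, mul_inv_cancel_left]
  have hX : ((x : SLn) : Mn)
      = c • ((g.1 : Mn) * ((x : SLn) : Mn).map σ * ((g.1⁻¹ : GL (Fin n) F) : Mn)) := by
    have h2 : ((x : SLn) : Mn) = ((conjSU g (mapSU σ x)).1 : Mn) * (zc.1 : Mn) := by
      conv_lhs => rw [hx1]
      rfl
    have hsc' : (zc.1 : Mn) = Matrix.scalar (Fin n) c := hsc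
    rw [conjSU_coe, mapSU_coe, hsc', Matrix.scalar_apply, ← Matrix.smul_one_eq_diagonal,
      Matrix.mul_smul, Matrix.mul_one] at h2
    exact h2
  have hdetX : ((x : SLn) : Mn).det = 1 := (x : SLn).2
  have hc0 : c ≠ 0 := by
    intro h0
    rw [h0, zero_smul] at hX
    have : Nonempty (Fin n) := ⟨⟨0, hn⟩⟩
    rw [hX, Matrix.det_zero] at hdetX
    exact zero_ne_one hdetX
  -- `y = P⁻¹ x P`
  set y : GL (Fin n) F := P⁻¹ * Matrix.SpecialLinearGroup.toGL (x : SLn) * P with hy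
  have hycoe : (y : Mn) = ((P⁻¹ : GL (Fin n) F) : Mn) * ((x : SLn) : Mn) * (P : Mn) := rfl
  have hXy : ((x : SLn) : Mn) = (P : Mn) * (y : Mn) * ((P⁻¹ : GL (Fin n) F) : Mn) := by
    rw [hycoe]
    calc ((x : SLn) : Mn)
        = ((P : Mn) * ((P⁻¹ : GL (Fin n) F) : Mn)) * ((x : SLn) : Mn)
          * ((P : Mn) * ((P⁻¹ : GL (Fin n) F) : Mn)) := by
          rw [gl_mul_inv, Matrix.one_mul, Matrix.mul_one]
      _ = _ := by simp only [Matrix.mul_assoc]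
  have hσy : (y : Mn).map σ = c⁻¹ • (y : Mn) := by
    have h3 := twist_conj σ g.1 P lam hlam hP (y : Mn)
    rw [← hXy] at h3
    rw [h3] at hX
    -- `X = c • P σ(y) P⁻¹`
    have h4 : (y : Mn) = c • (y : Mn).map σ := by
      rw [hycoe]
      conv_lhs => rw [hX]
      rw [Matrix.mul_smul, Matrix.smul_mul, ← hycoe]
      congr 1
      calc ((P⁻¹ : GL (Fin n) F) : Mn) * ((P : Mn) * (y : Mn).map σ * ((P⁻¹ : GL (Fin n) F) : Mn))
            * (P : Mn)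
          = (((P⁻¹ : GL (Fin n) F) : Mn) * (P : Mn)) * (y : Mn).map σ
            * (((P⁻¹ : GL (Fin n) F) : Mn) * (P : Mn)) := by simp only [Matrix.mul_assoc]
        _ = (y : Mn).map σ := by rw [gl_inv_mul, Matrix.one_mul, Matrix.mul_one]
    conv_rhs => rw [h4]
    rw [smul_smul, inv_mul_cancel₀ hc0, one_smul]
  have : Finite (F ≃+* F) :=
    Finite.of_injective (fun e : F ≃+* F => (e : F → F)) DFunLike.coe_injective
  obtain ⟨μ, hμ, hfix⟩ := Cfsg.Agent.Lib.Helper50Cent.exists_fixed_multiple (by omega) σ (orderOf σ)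
    rfl (orderOf_pos σ) y c⁻¹ hσy
  obtain ⟨Y₀, hY₀⟩ := Cfsg.Agent.Lib.Helper50UH90.descend σ j hj _ hfix
  have hdet : Y₀.det ≠ 0 := by
    intro h0
    have h5 : (Y₀.map j).det = 0 := by
      have := RingHom.map_det j Y₀
      rw [h0, map_zero] at this
      exact this.symm
    rw [hY₀, Matrix.det_smul] at h5
    have h6 : (y : Mn).det ≠ 0 := by
      have := (Matrix.isUnit_iff_isUnit_det _).1 y.isUnit
      exact this.ne_zero
    exact (mul_ne_zero (pow_ne_zero _ hμ) h6) h5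
  refine ⟨Matrix.GeneralLinearGroup.mkOfDetNeZero Y₀ hdet, μ⁻¹, inv_ne_zero hμ, ?_⟩
  have h7 : ((Matrix.GeneralLinearGroup.mkOfDetNeZero Y₀ hdet : GL (Fin n) F₀) : M0) = Y₀ := rfl
  rw [h7, hY₀, Matrix.mul_smul, Matrix.smul_mul, smul_smul, inv_mul_cancel₀ hμ, one_smul]
  exact hXy

/-- piece V4 -/
theorem imU_H4 (hF : Fintype.card F = q ^ 2) (hn : 3 ≤ n) (σ : F ≃+* F) (j : F₀ →+* F)
    (hj : ∀ a, σ a = a ↔ a ∈ Set.range j)
    (g : Cfsg.GU n F q) (P : GL (Fin n) F) (lam : F) (hlam : lam ≠ 0)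
    (hP : lam • ((g.1 : Mn) * (P : Mn).map σ) = (P : Mn)) (S₀ : Subgroup SL0)
    (hnorm : ∀ (y₀ : GL (Fin n) F₀) (x : ↥(Cfsg.SU n F q)) (μ : F),
      ((x : SLn) : Mn) = μ • ((P : Mn) * (y₀ : M0).map j * ((P⁻¹ : GL (Fin n) F) : Mn)) →
      ∀ s₀ ∈ S₀, conjGL y₀ s₀ ∈ S₀)
    (k : Cfsg.PSU n F q) (hk : (cU g * fU σ : AutU) k = k)
    (s : ↥(Cfsg.SU n F q)) (hs : s ∈ imU q j P S₀) :
    ∃ t ∈ imU q j P S₀, k * πU s * k⁻¹ * (πU s)⁻¹ = πU t := by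
  obtain ⟨x, rfl⟩ := QuotientGroup.mk_surjective k
  obtain ⟨y₀, μ, hμ, hx⟩ := exists_descent hF (by omega) σ j hj g P lam hlam hP x hk
  obtain ⟨s₀, hs₀, hss⟩ := mem_imU.1 hs
  have hc := hnorm y₀ x μ hx s₀ hs₀
  refine ⟨x * s * x⁻¹ * s⁻¹, mem_imU.2 ⟨conjGL y₀ s₀ * s₀⁻¹,
    Subgroup.mul_mem _ hc (Subgroup.inv_mem _ hs₀), ?_⟩, rfl⟩
  rw [map_mul, map_inv, hss]
  show _ = (x : SLn) * (s : SLn) * (x : SLn)⁻¹ * (s : SLn)⁻¹
  congr 1
  rw [eq_mul_inv_iff_mul_eq]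
  apply Subtype.ext
  rw [Matrix.SpecialLinearGroup.coe_mul, Matrix.SpecialLinearGroup.coe_mul, ← hss, embS_coe,
    embS_coe, conjGL_coe, hx, Matrix.map_mul (f := j), Matrix.map_mul (f := j), Matrix.mul_smul,
    Matrix.smul_mul]
  congr 1
  have h1 : ((y₀⁻¹ : GL (Fin n) F₀) : M0).map j * (y₀ : M0).map j = 1 := by
    rw [← Matrix.map_mul (f := j), gl_inv_mul]
    exact Matrix.map_one j (map_zero j) (map_one j)
  calc (P : Mn) * ((y₀ : M0).map j * (s₀ : M0).map j * ((y₀⁻¹ : GL (Fin n) F₀) : M0).map j)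
        * ((P⁻¹ : GL (Fin n) F) : Mn) * ((P : Mn) * (y₀ : M0).map j * ((P⁻¹ : GL (Fin n) F) : Mn))
      = (P : Mn) * (y₀ : M0).map j * (s₀ : M0).map j * (((y₀⁻¹ : GL (Fin n) F₀) : M0).map j
        * ((((P⁻¹ : GL (Fin n) F) : Mn) * (P : Mn)) * (y₀ : M0).map j))
        * ((P⁻¹ : GL (Fin n) F) : Mn) := by simp only [Matrix.mul_assoc]
    _ = (P : Mn) * (y₀ : M0).map j * ((((P⁻¹ : GL (Fin n) F) : Mn) * (P : Mn)) * (s₀ : M0).map j)
        * ((P⁻¹ : GL (Fin n) F) : Mn) := by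
        rw [gl_inv_mul, Matrix.one_mul, Matrix.one_mul, h1, Matrix.mul_one]
    _ = _ := by simp only [Matrix.mul_assoc]

end Cfsg.Agent.Lib.Helper95LBV4
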