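import Mathlib
import Cfsg.Prelude
import Cfsg.Agent.Lib.Helper42LBDefs
import Cfsg.Agent.Lib.Helper42LBUDefs
import Cfsg.Agent.Lib.Helper42BalB
import Cfsg.Agent.Lib.Helper7SUCenter

set_option autoImplicit false
set_option linter.unusedSectionVars false

/-! PROJECT 42, PART 2, piece V5: automorphisms of `PSU_n` centralising the image of `S₀`
(helper97). -/

namespace Cfsg.Agent.Lib.Helper97LBV5

open Matrix Cfsg Cfsg.Agent.Lib.Helper50Aut Cfsg.Agent.Lib.Helper50UAut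
  Cfsg.Agent.Lib.Helper42BalA Cfsg.Agent.Lib.Helper49EichGen Cfsg.Agent.Lib.Helper42LBDefs
  Cfsg.Agent.Lib.Helper42LBUDefs Cfsg.Agent.Lib.Helper50UOut Cfsg.Agent.Lib.Helper50UTw
  Cfsg.Agent.Lib.Helper7SUCenter

variable {F : Type*} [Field F] [Fintype F] {n : ℕ} {q : ℕ}
variable {F₀ : Type*} [Field F₀] [Fintype F₀]

local notation "SLn" => Matrix.SpecialLinearGroup (Fin n) F
local notation "Mn" => Matrix (Fin n) (Fin n) F
local notation "SL0" => Matrix.SpecialLinearGroup (Fin n) F₀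
local notation "M0" => Matrix (Fin n) (Fin n) F₀
local notation "AutU" => MulAut (Cfsg.PSU n F q)
local notation "πU" => (QuotientGroup.mk : Cfsg.SU n F q → Cfsg.PSU n F q)

/-- entrywise image of an invertible matrix -/
def mapGL (τ : F ≃+* F) (P : GL (Fin n) F) : GL (Fin n) F :=
  Matrix.GeneralLinearGroup.map (τ : F →+* F) P

theorem mapGL_coe (τ : F ≃+* F) (P : GL (Fin n) F) : (mapGL τ P : Mn) = (P : Mn).map τ := rfl

theorem mapGL_inv_coe (τ : F ≃+* F) (P : GL (Fin n) F) :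
    (((mapGL τ P)⁻¹ : GL (Fin n) F) : Mn) = ((P⁻¹ : GL (Fin n) F) : Mn).map τ := by
  unfold mapGL
  rw [← Matrix.GeneralLinearGroup.map_inv]
  rfl

/-- translation of `cU h * fU τ` centralising the image into the matrix hypothesis of `hcore` -/
theorem core_hyp (hF : Fintype.card F = q ^ 2) (hn : 3 ≤ n) (j : F₀ →+* F)
    (P : GL (Fin n) F) (S₀ : Subgroup SL0) (hle : ∀ s₀ ∈ S₀, embS j P s₀ ∈ Cfsg.SU n F q)
    (h : Cfsg.GU n F q) (τ : F ≃+* F)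
    (hγ : ∀ s ∈ imU q j P S₀, (cU h * fU τ : AutU) (πU s) = πU s) :
    ∀ s ∈ S₀, ∃ z : F, ((P⁻¹ * h.1 * mapGL τ P : GL (Fin n) F) : Mn) * ((s : M0).map j).map τ
      = z • ((s : M0).map j * ((P⁻¹ * h.1 * mapGL τ P : GL (Fin n) F) : Mn)) := by
  intro s₀ hs₀
  have hmem : (⟨embS j P s₀, hle s₀ hs₀⟩ : ↥(Cfsg.SU n F q)) ∈ imU q j P S₀ :=
    mem_imU.2 ⟨s₀, hs₀, rfl⟩
  have h1 := hγ _ hmem
  rw [MulAut.mul_apply, fU_mk, cU_mk] at h1
  have h2 := QuotientGroup.eq.1 h1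
  have i0 : Fin n := ⟨0, by omega⟩
  have h3 := eq_scalar_of_commute hF _ (commute_of_mem_center hF _ h2) i0
  set z : F := ((((conjSU h (mapSU τ ⟨embS j P s₀, hle s₀ hs₀⟩))⁻¹ *
    (⟨embS j P s₀, hle s₀ hs₀⟩ : ↥(Cfsg.SU n F q)) : ↥(Cfsg.SU n F q)) : SLn) : Mn) i0 i0 with hz
  -- `s = (h τ(s) h⁻¹) * z`
  have h4 : (embS j P s₀ : Mn) = (h.1 : Mn) * (embS j P s₀ : Mn).map τ
      * ((h.1⁻¹ : GL (Fin n) F) : Mn) * Matrix.scalar (Fin n) z := by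
    rw [← h3]
    have e1 : (h.1 : Mn) * (embS j P s₀ : Mn).map τ * ((h.1⁻¹ : GL (Fin n) F) : Mn)
        = (((conjSU h (mapSU τ ⟨embS j P s₀, hle s₀ hs₀⟩) : ↥(Cfsg.SU n F q)) : SLn) : Mn) := rfl
    rw [e1, ← Matrix.SpecialLinearGroup.coe_mul, ← Subgroup.coe_mul, mul_inv_cancel_left]
  refine ⟨z⁻¹, ?_⟩
  have hz0 : z ≠ 0 := by
    intro h0
    rw [h0, map_zero, mul_zero] at h4
    have h5 := (embS j P s₀).2
    have : Nonempty (Fin n) := ⟨i0⟩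
    rw [h4, Matrix.det_zero] at h5
    exact zero_ne_one h5
  rw [embS_coe] at h4
  have hsc : ∀ A : Mn, A * Matrix.scalar (Fin n) z = z • A := by
    intro A
    rw [Matrix.scalar_apply, ← Matrix.smul_one_eq_diagonal, Matrix.mul_smul, mul_one]
  rw [hsc] at h4
  have e2 : ((P : Mn) * (s₀ : M0).map j * ((P⁻¹ : GL (Fin n) F) : Mn)).map τ
      = (P : Mn).map τ * ((s₀ : M0).map j).map τ * ((P⁻¹ : GL (Fin n) F) : Mn).map τ := by
    rw [Cfsg.Agent.Lib.Helper50UH90.map_mulE, Cfsg.Agent.Lib.Helper50UH90.map_mulE]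
  rw [e2] at h4
  simp only [Units.val_mul, mapGL_coe]
  -- multiply `h4` by `P⁻¹` on the left and `h τ(P)` on the right
  have h5 := congrArg (fun A : Mn => ((P⁻¹ : GL (Fin n) F) : Mn) * A *
    ((h.1 : Mn) * (P : Mn).map τ)) h4
  beta_reduce at h5
  have l1 : ((P⁻¹ : GL (Fin n) F) : Mn) * ((P : Mn) * (s₀ : M0).map j * ((P⁻¹ : GL (Fin n) F) : Mn))
      * ((h.1 : Mn) * (P : Mn).map τ)
      = (s₀ : M0).map j * (((P⁻¹ : GL (Fin n) F) : Mn) * (h.1 : Mn) * (P : Mn).map τ) := by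
    calc _ = (((P⁻¹ : GL (Fin n) F) : Mn) * (P : Mn)) * (s₀ : M0).map j *
          (((P⁻¹ : GL (Fin n) F) : Mn) * (h.1 : Mn) * (P : Mn).map τ) := by
          simp only [mul_assoc]
      _ = _ := by rw [gl_inv_mul, one_mul]
  have hPτ : ((P⁻¹ : GL (Fin n) F) : Mn).map τ * (P : Mn).map τ = 1 := by
    rw [← Cfsg.Agent.Lib.Helper50UH90.map_mulE, gl_inv_mul, Cfsg.Agent.Lib.Helper50UH90.map_oneE]
  have l2 : ((P⁻¹ : GL (Fin n) F) : Mn) * (z • ((h.1 : Mn) * ((P : Mn).map τ * ((s₀ : M0).map j).map τ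
        * ((P⁻¹ : GL (Fin n) F) : Mn).map τ) * ((h.1⁻¹ : GL (Fin n) F) : Mn)))
      * ((h.1 : Mn) * (P : Mn).map τ)
      = z • (((P⁻¹ : GL (Fin n) F) : Mn) * (h.1 : Mn) * (P : Mn).map τ * ((s₀ : M0).map j).map τ) := by
    rw [Matrix.mul_smul, Matrix.smul_mul]
    congr 1
    calc _ = ((P⁻¹ : GL (Fin n) F) : Mn) * (h.1 : Mn) * (P : Mn).map τ * ((s₀ : M0).map j).map τ
          * (((P⁻¹ : GL (Fin n) F) : Mn).map τ * ((((h.1⁻¹ : GL (Fin n) F) : Mn) * (h.1 : Mn))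
            * (P : Mn).map τ)) := by simp only [mul_assoc]
      _ = _ := by rw [gl_inv_mul, one_mul, hPτ, mul_one]
  rw [l1, l2] at h5
  rw [h5, smul_smul, inv_mul_cancel₀ hz0, one_smul]

/-- piece V5 -/
theorem imU_H5 (hF : Fintype.card F = q ^ 2) (hn : 3 ≤ n) (hs : ¬ (n = 3 ∧ q = 2)) (σ : F ≃+* F)
    (j : F₀ →+* F) (hj : ∀ a, σ a = a ↔ a ∈ Set.range j) (p : ℕ)
    (g : Cfsg.GU n F q) (P : GL (Fin n) F) (hφp : (cU g * fU σ : AutU) ^ p = 1)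
    (S₀ : Subgroup SL0) (hle : ∀ s₀ ∈ S₀, embS j P s₀ ∈ Cfsg.SU n F q)
    (H2 : ∀ s ∈ imU q j P S₀, (cU g * fU σ : AutU) (πU s) = πU s)
    (hcore : ∀ (h : GL (Fin n) F) (τ : F ≃+* F),
      (∀ s ∈ S₀, ∃ z : F, (h : Mn) * ((s : M0).map j).map τ = z • ((s : M0).map j * (h : Mn))) →
      (∃ c : F, (h : Mn) = c • (1 : Mn)) ∧ ∀ a : F₀, τ (j a) = j a)
    (β : AutU) (hβ : ∀ s ∈ imU q j P S₀, β (πU s) = πU s) : β ^ p = 1 := by
  obtain ⟨h, τ, rfl⟩ := aut_psu hF hn hs β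
  have h1 := (hcore _ τ (core_hyp hF hn j P S₀ hle h τ hβ)).2
  have hfin : Finite (F ≃+* F) := Finite.of_injective (fun β : F ≃+* F => (β : F → F))
    (fun a b h => RingEquiv.ext (congrFun h))
  have h2 : τ ∈ Subgroup.zpowers σ := by
    apply Cfsg.Agent.Lib.Helper42BalB.mem_zpowers_of_fix
    intro a ha
    obtain ⟨b, rfl⟩ := (hj a).1 ha
    exact h1 b
  rw [← mem_powers_iff_mem_zpowers] at h2
  obtain ⟨i, rfl⟩ := h2
  -- `φ ^ i`
  have h3 : (cU g * fU σ : AutU) ^ i = cU (NkGU σ g i) * fU (σ ^ i) := by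
    rw [pow_cU_fU, map_pow]
  have h4 : (cU h * fU (σ ^ i) : AutU) = cU (h * (NkGU σ g i)⁻¹) * (cU g * fU σ : AutU) ^ i := by
    rw [h3, map_mul, map_inv]
    group
  have hφi : ∀ k : ℕ, ∀ s ∈ imU q j P S₀, ((cU g * fU σ : AutU) ^ k) (πU s) = πU s := by
    intro k
    induction k with
    | zero => intro s _; simp
    | succ k ih =>
      intro s hs'
      rw [pow_succ, MulAut.mul_apply, H2 s hs', ih s hs']
  have h5 : ∀ s ∈ imU q j P S₀,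
      (cU (h * (NkGU σ g i)⁻¹) * fU (1 : F ≃+* F) : AutU) (πU s) = πU s := by
    intro s hs'
    rw [map_one, mul_one]
    have := hβ s hs'
    rw [h4, MulAut.mul_apply, hφi i s hs'] at this
    exact this
  obtain ⟨c, hc⟩ := (hcore _ 1 (core_hyp hF hn j P S₀ hle _ 1 h5)).1
  have h6 : (mapGL (1 : F ≃+* F) P : Mn) = (P : Mn) := by
    rw [mapGL_coe]
    ext a b
    rfl
  simp only [Units.val_mul, h6] at hc
  have h7 : ((h * (NkGU σ g i)⁻¹ : Cfsg.GU n F q).1 : Mn) = c • (1 : Mn) := by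
    calc ((h * (NkGU σ g i)⁻¹ : Cfsg.GU n F q).1 : Mn)
        = ((P : Mn) * ((P⁻¹ : GL (Fin n) F) : Mn)) * ((h * (NkGU σ g i)⁻¹ : Cfsg.GU n F q).1 : Mn)
          * ((P : Mn) * ((P⁻¹ : GL (Fin n) F) : Mn)) := by rw [gl_mul_inv, one_mul, mul_one]
      _ = (P : Mn) * (((P⁻¹ : GL (Fin n) F) : Mn) * ((h * (NkGU σ g i)⁻¹ : Cfsg.GU n F q).1 : Mn)
          * (P : Mn)) * ((P⁻¹ : GL (Fin n) F) : Mn) := by simp only [mul_assoc]
      _ = c • (1 : Mn) := by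
          rw [hc, Matrix.mul_smul, mul_one, Matrix.smul_mul, gl_mul_inv]
  have h8 : (cU (h * (NkGU σ g i)⁻¹) : AutU) = 1 := by
    apply cU_eq_one_of_scalar _ c
    intro x
    rw [h7, Matrix.smul_mulVec, Matrix.one_mulVec]
  rw [h4, h8, one_mul, ← pow_mul, mul_comm, pow_mul, hφp, one_pow]

end Cfsg.Agent.Lib.Helper97LBV5
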