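import Mathlib
import Cfsg.Prelude
import Cfsg.Agent.Lib.Helper42LBDefs
import Cfsg.Agent.Lib.Helper42LBUDefs
import Cfsg.Agent.Lib.Helper50UH90
import Cfsg.Agent.Lib.Helper7SUCenter
import Cfsg.Agent.Lib.Helper72LBF3

set_option autoImplicit false
set_option linter.unusedSectionVars false

/-! PROJECT 42, PART 2, piece W4: an element of order `p` in `PSU_n(q₀)` (helper97). -/

namespace Cfsg.Agent.Lib.Helper97LBW4

open Matrix Cfsg Cfsg.Agent.Lib.Helper50Aut Cfsg.Agent.Lib.Helper50UAut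
  Cfsg.Agent.Lib.Helper42LBDefs Cfsg.Agent.Lib.Helper42LBUDefs Cfsg.Agent.Lib.Helper50UOut
  Cfsg.Agent.Lib.Helper50UTw Cfsg.Agent.Lib.Helper50H90 Cfsg.Agent.Lib.Helper50UH90
  Cfsg.Agent.Lib.Helper7SUCenter Cfsg.Agent.Lib.Helper7GU Cfsg.Agent.Lib.Helper7SU
  Cfsg.Agent.Lib.Helper72LBF3

variable {F : Type*} [Field F] [Fintype F] {n : ℕ} {q : ℕ}
variable {F₀ : Type*} [Field F₀] [Fintype F₀]

local notation "SLn" => Matrix.SpecialLinearGroup (Fin n) F
local notation "Mn" => Matrix (Fin n) (Fin n) F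
local notation "SL0" => Matrix.SpecialLinearGroup (Fin n) F₀
local notation "M0" => Matrix (Fin n) (Fin n) F₀
local notation "AutU" => MulAut (Cfsg.PSU n F q)
local notation "πU" => (QuotientGroup.mk : Cfsg.SU n F q → Cfsg.PSU n F q)
local notation "π₀" => (QuotientGroup.mk : Matrix.SpecialLinearGroup (Fin n) F₀ →
  Matrix.SpecialLinearGroup (Fin n) F₀ ⧸ Subgroup.center (Matrix.SpecialLinearGroup (Fin n) F₀))

theorem q_ne_zero (hF : Fintype.card F = q ^ 2) : q ≠ 0 := by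
  rintro rfl
  simp at hF

theorem isU_one (hq : q ≠ 0) : IsU n F q (1 : Mn) := by
  have := isU_scalar (n := n) (F := F) hq 1 (one_pow _)
  rwa [map_one] at this

theorem isU_pow (hF : Fintype.card F = q ^ 2) (A : Mn) (hA : IsU n F q A) (m : ℕ) :
    IsU n F q (A ^ m) := by
  induction m with
  | zero => rw [pow_zero]; exact isU_one (q_ne_zero hF)
  | succ k ih => rw [pow_succ]; exact isU_mul hF _ _ ih hA

theorem scalar_mul' (c : F) (A : Mn) : Matrix.scalar (Fin n) c * A = c • A := by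
  rw [Matrix.scalar_apply, ← Matrix.smul_eq_diagonal_mul]

/-- a scalar element of `SU` is central -/
theorem mem_center_SU_of_scalar (s : ↥(Cfsg.SU n F q)) (c : F)
    (hs : ((s : SLn) : Mn) = c • (1 : Mn)) : s ∈ Subgroup.center ↥(Cfsg.SU n F q) := by
  rw [Subgroup.mem_center_iff]
  intro g
  apply Subtype.ext
  apply Subtype.ext
  show ((g : SLn) : Mn) * ((s : SLn) : Mn) = ((s : SLn) : Mn) * ((g : SLn) : Mn)
  rw [hs]
  simp

/-- a matrix over `F₀` whose image over `F` is scalar is scalar -/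
theorem scalar_of_map_scalar (j : F₀ →+* F) (A : M0) (w : F) (i0 : Fin n)
    (h : A.map j = w • (1 : Mn)) : A = Matrix.scalar (Fin n) (A i0 i0) := by
  have h0 : j (A i0 i0) = w := by
    have := congrFun (congrFun h i0) i0
    simpa using this
  ext a b
  apply j.injective
  have := congrFun (congrFun h a) b
  rw [Matrix.map_apply] at this
  rw [this, Matrix.scalar_apply]
  by_cases hab : a = b
  · subst hab
    simp [h0]
  · simp [hab]

theorem map_pow_j (j : F₀ →+* F) (A : M0) (m : ℕ) : (A ^ m).map j = (A.map j) ^ m := by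
  have h4 := map_pow (RingHom.mapMatrix (m := Fin n) j) A m
  rw [RingHom.mapMatrix_apply, RingHom.mapMatrix_apply] at h4
  exact h4

/-- case `p ∣ q₀ + 1` -/
theorem case_diagU {q₀ : ℕ} (hF₀ : Fintype.card F₀ = q₀ ^ 2) (hn : 3 ≤ n) (p : ℕ) [Fact p.Prime]
    (ζ : F₀) (hζ0 : ζ ≠ 0) (hζU : ζ ^ (q₀ + 1) = 1) (hζp : ζ ^ p = 1) (hζ1 : ζ ≠ 1) :
    ∃ t₀ : SL0, t₀ ∈ Cfsg.SU n F₀ q₀ ∧ orderOf (π₀ t₀) = p := by
  classical
  let d : Fin n → F₀ := fun i => if (i : ℕ) = 0 then ζ else if (i : ℕ) = 1 then ζ⁻¹ else 1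
  have hdet : (Matrix.diagonal d).det = 1 := by
    rw [Matrix.det_diagonal]
    rw [Finset.prod_eq_mul (⟨0, by omega⟩ : Fin n) (⟨1, by omega⟩ : Fin n)]
    · simp [d, hζ0]
    · intro h
      simpa using congrArg Fin.val h
    · intro c _ hc
      have h0 : (c : ℕ) ≠ 0 := fun h => hc.1 (Fin.ext h)
      have h1 : (c : ℕ) ≠ 1 := fun h => hc.2 (Fin.ext h)
      simp [d, h0, h1]
    · intro h; exact absurd (Finset.mem_univ _) h
    · intro h; exact absurd (Finset.mem_univ _) h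
  let t : SL0 := ⟨Matrix.diagonal d, hdet⟩
  refine ⟨t, ?_, ?_⟩
  · rw [mem_SU_iff hF₀]
    apply isU_diagonal (q_ne_zero hF₀)
    intro k
    simp only [d]
    split_ifs
    · exact hζU
    · rw [inv_pow, hζU, inv_one]
    · exact one_pow _
  · apply orderOf_mk_eq
    · have : t ^ p = 1 := by
        apply Subtype.ext
        rw [Matrix.SpecialLinearGroup.coe_pow, Matrix.SpecialLinearGroup.coe_one]
        show (Matrix.diagonal d) ^ p = 1
        rw [Matrix.diagonal_pow, ← Matrix.diagonal_one]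
        congr 1
        funext i
        simp only [d, Pi.pow_apply]
        split_ifs
        · exact hζp
        · rw [inv_pow, hζp, inv_one]
        · exact one_pow _
      rw [this]
      exact one_mem _
    · intro hc
      rw [Matrix.SpecialLinearGroup.mem_center_iff] at hc
      obtain ⟨r, -, hr⟩ := hc
      have hr' : Matrix.scalar (Fin n) r = Matrix.diagonal d := hr
      have h0 : r = ζ := by
        have := congrFun (congrFun hr' ⟨0, by omega⟩) ⟨0, by omega⟩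
        simpa [d, Matrix.scalar_apply] using this
      have h2 : r = 1 := by
        have := congrFun (congrFun hr' ⟨2, by omega⟩) ⟨2, by omega⟩
        simpa [d, Matrix.scalar_apply] using this
      exact hζ1 (h0.symm.trans h2)

/-- case `p ∤ q₀ + 1` -/
theorem case_coprimeU {q₀ : ℕ} (hF : Fintype.card F = q ^ 2) (hF₀ : Fintype.card F₀ = q₀ ^ 2)
    (hn : 3 ≤ n) (τ : F ≃+* F) (j : F₀ →+* F) (hj : ∀ a, τ a = a ↔ a ∈ Set.range j)
    (hjq : ∀ x : F₀, j x ^ q = j (x ^ q₀)) (p : ℕ) [Fact p.Prime]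
    (x : ↥(Cfsg.SU n F q)) (hx : orderOf (πU x) = p) (μ : F) (hμ : μ ^ (q + 1) = 1)
    (e : (μ • ((x : SLn) : Mn)).map τ = μ • ((x : SLn) : Mn))
    (hpm : Nat.Coprime p (q₀ + 1)) :
    ∃ t₀ : SL0, t₀ ∈ Cfsg.SU n F₀ q₀ ∧ orderOf (π₀ t₀) = p := by
  classical
  have hpp : p.Prime := Fact.out
  have i0 : Fin n := ⟨0, by omega⟩
  have hμ0 : μ ≠ 0 := by
    rintro rfl
    simp at hμ
  obtain ⟨y₀, hy₀⟩ := descend τ j hj _ e
  have hUy : IsU n F q (μ • ((x : SLn) : Mn)) := by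
    rw [← scalar_mul']
    exact isU_mul hF _ _ (isU_scalar (q_ne_zero hF) μ hμ) ((mem_SU_iff hF x.1).1 x.2)
  have hUy₀ : IsU n F₀ q₀ y₀ := (isU_map_iff j hjq y₀).1 (by rw [hy₀]; exact hUy)
  have hdet := det_pow_of_isU hF₀ y₀ hUy₀
  let t : SL0 := ⟨y₀ ^ (q₀ + 1), by rw [Matrix.det_pow, hdet]⟩
  have htj : ∀ k : ℕ, ((y₀ ^ (q₀ + 1)) ^ k).map j
      = (μ ^ ((q₀ + 1) * k)) • (((x ^ ((q₀ + 1) * k) : ↥(Cfsg.SU n F q)) : SLn) : Mn) := by
    intro k
    rw [← pow_mul, map_pow_j, hy₀, smul_pow]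
    rfl
  refine ⟨t, ?_, ?_⟩
  · rw [mem_SU_iff hF₀]
    exact isU_pow hF₀ y₀ hUy₀ _
  · apply orderOf_mk_eq
    · -- `t ^ p` is scalar
      have h1 : x ^ p ∈ Subgroup.center ↥(Cfsg.SU n F q) := by
        rw [← QuotientGroup.eq_one_iff, QuotientGroup.mk_pow, ← hx]
        exact pow_orderOf_eq_one _
      have h2 : x ^ ((q₀ + 1) * p) ∈ Subgroup.center ↥(Cfsg.SU n F q) := by
        rw [mul_comm, pow_mul]
        exact Subgroup.pow_mem _ h1 _
      have h3 := eq_scalar_of_commute hF _ (commute_of_mem_center hF _ h2) i0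
      have h4 := htj p
      have h3' : (((x ^ ((q₀ + 1) * p) : ↥(Cfsg.SU n F q)) : SLn) : Mn)
          = Matrix.scalar (Fin n) ((((x ^ ((q₀ + 1) * p) : ↥(Cfsg.SU n F q)) : SLn) : Mn) i0 i0) :=
        h3
      rw [h3', Matrix.scalar_apply, ← Matrix.smul_one_eq_diagonal, smul_smul] at h4
      have h5 := scalar_of_map_scalar j _ _ i0 h4
      rw [Matrix.SpecialLinearGroup.mem_center_iff]
      refine ⟨((y₀ ^ (q₀ + 1)) ^ p) i0 i0, ?_, ?_⟩
      · have h6 : ((y₀ ^ (q₀ + 1)) ^ p).det = 1 := by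
          rw [Matrix.det_pow, Matrix.det_pow, hdet, one_pow]
        rw [h5] at h6
        simpa using h6
      · rw [Matrix.SpecialLinearGroup.coe_pow]
        exact h5.symm
    · intro hc
      rw [Matrix.SpecialLinearGroup.mem_center_iff] at hc
      obtain ⟨r, -, hr⟩ := hc
      have hr' : Matrix.scalar (Fin n) r = y₀ ^ (q₀ + 1) := hr
      have h4 := htj 1
      rw [pow_one, mul_one, ← hr'] at h4
      have h5 : (Matrix.scalar (Fin n) r).map j = j r • (1 : Mn) := by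
        ext a b
        by_cases hab : a = b
        · subst hab; simp [Matrix.scalar_apply]
        · simp [Matrix.scalar_apply, hab]
      rw [h5] at h4
      have h6 : (((x ^ (q₀ + 1) : ↥(Cfsg.SU n F q)) : SLn) : Mn)
          = ((μ ^ (q₀ + 1))⁻¹ * j r) • (1 : Mn) := by
        rw [mul_smul, h4, smul_smul, inv_mul_cancel₀ (pow_ne_zero _ hμ0), one_smul]
      have h7 := mem_center_SU_of_scalar _ _ h6
      rw [← QuotientGroup.eq_one_iff, QuotientGroup.mk_pow] at h7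
      have h8 := orderOf_dvd_of_pow_eq_one h7
      rw [hx] at h8
      have h9 : p ∣ Nat.gcd p (q₀ + 1) := Nat.dvd_gcd dvd_rfl h8
      rw [hpm] at h9
      exact hpp.one_lt.ne' (Nat.dvd_one.1 h9)

/-- piece W4 -/
theorem su_t0 {q₀ : ℕ} (hF : Fintype.card F = q ^ 2) (hF₀ : Fintype.card F₀ = q₀ ^ 2) (hn : 3 ≤ n)
    (τ : F ≃+* F) (j : F₀ →+* F) (hj : ∀ a, τ a = a ↔ a ∈ Set.range j)
    (hjq : ∀ x : F₀, j x ^ q = j (x ^ q₀)) (p : ℕ) [Fact p.Prime]
    (hp : ¬ Nat.Coprime p (Nat.card ↥(MonoidHom.eqLocus (fU τ : AutU).toMonoidHom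
      (MonoidHom.id (Cfsg.PSU n F q))))) :
    ∃ t₀ : SL0, t₀ ∈ Cfsg.SU n F₀ q₀ ∧ orderOf (π₀ t₀) = p := by
  classical
  have hpp : p.Prime := Fact.out
  have i0 : Fin n := ⟨0, by omega⟩
  by_cases hpm : Nat.Coprime p (q₀ + 1)
  · have hfin : Finite (Cfsg.PSU n F q) := by
      have : Finite SLn := Finite.of_injective (fun s : SLn => (s : Mn)) Subtype.val_injective
      exact Quotient.finite _
    have hdvd := (Nat.Prime.dvd_iff_not_coprime hpp).2 hp
    obtain ⟨k, hk⟩ := exists_prime_orderOf_dvd_card' p hdvd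
    have hk' : orderOf (k : Cfsg.PSU n F q) = p := by
      rw [Subgroup.orderOf_coe, hk]
    have hkfix : (fU τ : AutU) (k : Cfsg.PSU n F q) = k := k.2
    obtain ⟨x, hx⟩ := QuotientGroup.mk_surjective (k : Cfsg.PSU n F q)
    rw [← hx] at hkfix hk'
    rw [fU_mk] at hkfix
    have h1 : x⁻¹ * mapSU τ x ∈ Subgroup.center ↥(Cfsg.SU n F q) := QuotientGroup.eq.1 hkfix.symm
    have h3 := eq_scalar_of_commute hF _ (commute_of_mem_center hF _ h1) i0
    have hzU : ((((x⁻¹ * mapSU τ x : ↥(Cfsg.SU n F q)) : SLn) : Mn) i0 i0) ^ (q + 1) = 1 :=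
      (centerEquiv hF i0 ⟨_, h1⟩).2.2
    set z : F := (((x⁻¹ * mapSU τ x : ↥(Cfsg.SU n F q)) : SLn) : Mn) i0 i0 with hz
    have h2 : ((x : SLn) : Mn).map τ = z • ((x : SLn) : Mn) := by
      have h4 : mapSU τ x = x * (x⁻¹ * mapSU τ x) := by group
      have h5 := congrArg (fun s : ↥(Cfsg.SU n F q) => ((s : SLn) : Mn)) h4
      have h6 : (((x * (x⁻¹ * mapSU τ x) : ↥(Cfsg.SU n F q)) : SLn) : Mn)
          = ((x : SLn) : Mn) * (((x⁻¹ * mapSU τ x : ↥(Cfsg.SU n F q)) : SLn) : Mn) := rfl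
      have h3' : (((x⁻¹ * mapSU τ x : ↥(Cfsg.SU n F q)) : SLn) : Mn) = Matrix.scalar (Fin n) z := h3
      beta_reduce at h5
      rw [h6, h3', Matrix.scalar_apply, ← Matrix.smul_eq_mul_diagonal] at h5
      exact h5
    have hfinσ : Finite (F ≃+* F) :=
      Finite.of_injective (fun τ : F ≃+* F => (τ : F → F)) DFunLike.coe_injective
    have hN : Nk τ z (orderOf τ) = 1 :=
      Nk_eq_one_of_map_eq (by omega) τ (orderOf τ) (pow_orderOf_eq_one τ)
        (Matrix.SpecialLinearGroup.toGL (x : SLn)) z h2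
    obtain ⟨μ, hμ, hμz⟩ := hilbert90_CC hF τ (orderOf τ) rfl (orderOf_pos τ) hF₀ j hj hjq z hzU hN
    have e : (μ • ((x : SLn) : Mn)).map τ = μ • ((x : SLn) : Mn) := by
      have h7 : (μ • ((x : SLn) : Mn)).map τ = τ μ • ((x : SLn) : Mn).map τ := by
        ext a b
        simp
      rw [h7, h2, smul_smul, mul_comm, hμz]
    exact case_coprimeU hF hF₀ hn τ j hj hjq p x hk' μ hμ e hpm
  · have hdvd := (Nat.Prime.dvd_iff_not_coprime hpp).2 hpm
    rw [← card_CC hF₀] at hdvd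
    obtain ⟨u, hu⟩ := exists_prime_orderOf_dvd_card' p hdvd
    have hu' : orderOf ((u : F₀ˣ) : F₀) = p := by
      rw [orderOf_units, Subgroup.orderOf_coe, hu]
    have hζp : ((u : F₀ˣ) : F₀) ^ p = 1 := by rw [← hu']; exact pow_orderOf_eq_one _
    have hζ1 : ((u : F₀ˣ) : F₀) ≠ 1 := by
      intro h
      rw [h, orderOf_one] at hu'
      exact hpp.one_lt.ne hu'
    exact case_diagU hF₀ hn p _ (u : F₀ˣ).ne_zero ((mem_CC u.1).1 u.2) hζp hζ1

end Cfsg.Agent.Lib.Helper97LBW4
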