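import Mathlib
import Cfsg.Prelude
import Cfsg.Agent.Lib.Helper42LBDefs
import Cfsg.Agent.Lib.Helper42LBUDefs
import Cfsg.Agent.Lib.Helper50H90
import Cfsg.Agent.Lib.Helper50UH90

set_option autoImplicit false
set_option linter.unusedSectionVars false

/-! PROJECT 42, PART 2, piece X1: Hilbert 90 descent of symmetric / skew unitary matrices
(helper97). -/

namespace Cfsg.Agent.Lib.Helper97LBX1

open Matrix Cfsg Cfsg.Agent.Lib.Helper50Aut Cfsg.Agent.Lib.Helper50UAut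
  Cfsg.Agent.Lib.Helper42LBDefs Cfsg.Agent.Lib.Helper42LBUDefs
  Cfsg.Agent.Lib.Helper50H90 Cfsg.Agent.Lib.Helper50UH90 Cfsg.Agent.Lib.Helper7GU

variable {F : Type*} [Field F] [Fintype F] {n : ℕ} {q : ℕ}
variable {F₀ : Type*} [Field F₀] [Fintype F₀]

local notation "Mn" => Matrix (Fin n) (Fin n) F
local notation "M0" => Matrix (Fin n) (Fin n) F₀

theorem map_smulE (σ : F ≃+* F) (c : F) (A : Mn) : (c • A).map σ = σ c • A.map σ := by
  ext a b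
  simp

/-- the common part of the two descents -/
theorem descent_aux (σ : F ≃+* F) (hσ2 : orderOf σ = 2) (j : F₀ →+* F)
    (hj : ∀ a, σ a = a ↔ a ∈ Set.range j) (G : Mn) (ε : F) (hε : ε * ε = 1) (hσε : σ ε = ε)
    (hG : Gᵀ = ε • G) (hU : Gᵀ * G.map σ = 1) :
    ∃ (P : GL (Fin n) F) (u : GL (Fin n) F₀) (lam κ : F), lam ≠ 0 ∧ κ ≠ 0 ∧
      lam • (G * (P : Mn).map σ) = (P : Mn) ∧ ((u : M0).map j)ᵀ = ε • (u : M0).map j ∧
      (P : Mn)ᵀ * (P : Mn).map σ = κ • (u : M0).map j := by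
  have hε0 : ε ≠ 0 := by
    rintro rfl
    simp at hε
  have hσσ : ∀ x, σ (σ x) = x := by
    intro x
    have h1 : σ ^ 2 = 1 := by rw [← hσ2]; exact pow_orderOf_eq_one σ
    have := congrArg (fun f : F ≃+* F => f x) h1
    simpa [pow_two] using this
  obtain ⟨lam, hlam0, hlam⟩ := norm_surj σ 2 hσ2 (by norm_num) ε hε0 hσε
  have hlam' : lam * σ lam = ε := by simpa [Nk] using hlam
  obtain ⟨κ, hκ0, hκ⟩ := hilbert90_scalar σ 2 hσ2 (by norm_num) ε (by simp [Nk, hσε, hε])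
  have hG' : G = ε • Gᵀ := by rw [hG, smul_smul, hε, one_smul]
  have hN : NkM σ (lam • G) 2 = 1 := by
    show (lam • G) * ((lam • G) * ((1 : Mn).map σ)).map σ = 1
    rw [map_oneE, mul_one, map_smulE, smul_mul_smul_comm, hlam']
    nth_rewrite 1 [hG']
    rw [smul_mul_assoc, hU, smul_smul, hε, one_smul]
  obtain ⟨M, M', e1, e2, e3⟩ := hilbert90_matrix σ 2 hσ2 (by norm_num) (lam • G) hN
  have hMσσ : (M.map σ).map σ = M := by
    ext a b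
    exact hσσ _
  -- the matrix `Mᵀ σ(M)`
  have hT1 : (Mᵀ * M.map σ)ᵀ = lam • ((M.map σ)ᵀ * G * M.map σ) := by
    rw [Matrix.transpose_mul, Matrix.transpose_transpose]
    nth_rewrite 2 [← e3]
    rw [smul_mul_assoc, Matrix.mul_smul, mul_assoc]
  have hT2 : Mᵀ * M.map σ = (lam * ε) • ((M.map σ)ᵀ * G * M.map σ) := by
    nth_rewrite 1 [← e3]
    rw [Matrix.transpose_mul, Matrix.transpose_smul, hG, smul_smul, Matrix.mul_smul,
      smul_mul_assoc]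
  have hT : (Mᵀ * M.map σ)ᵀ = ε • (Mᵀ * M.map σ) := by
    rw [hT1, hT2, smul_smul]
    congr 1
    rw [mul_comm lam, ← mul_assoc, hε, one_mul]
  have hS : (Mᵀ * M.map σ).map σ = (Mᵀ * M.map σ)ᵀ := by
    rw [map_mulE, hMσσ, Matrix.transpose_mul, Matrix.transpose_transpose]
    rfl
  have hσκ : σ κ = ε * κ := by
    calc σ κ = (ε * ε) * σ κ := by rw [hε, one_mul]
      _ = ε * κ := by rw [mul_assoc, hκ]
  have hY : (κ⁻¹ • (Mᵀ * M.map σ)).map σ = κ⁻¹ • (Mᵀ * M.map σ) := by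
    rw [map_smulE, hS, hT, smul_smul, map_inv₀, hσκ]
    congr 1
    field_simp
  obtain ⟨Y₀, hY₀⟩ := descend σ j hj _ hY
  have hdetY : (κ⁻¹ • (Mᵀ * M.map σ)).det ≠ 0 := by
    have h1 : (κ⁻¹ • (Mᵀ * M.map σ)) * (κ • (M'.map σ * M'ᵀ)) = 1 := by
      rw [smul_mul_smul_comm, inv_mul_cancel₀ hκ0, one_smul]
      calc Mᵀ * M.map σ * (M'.map σ * M'ᵀ) = Mᵀ * (M.map σ * M'.map σ) * M'ᵀ := by
            simp only [mul_assoc]
        _ = 1 := by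
            rw [← map_mulE, e1, map_oneE, mul_one, ← Matrix.transpose_mul, e2,
              Matrix.transpose_one]
    intro h0
    have := congrArg Matrix.det h1
    rw [Matrix.det_mul, h0, zero_mul, Matrix.det_one] at this
    exact zero_ne_one this
  have hdet : Y₀.det ≠ 0 := by
    intro h0
    apply hdetY
    rw [← hY₀]
    have := RingHom.map_det j Y₀
    rw [RingHom.mapMatrix_apply] at this
    rw [← this, h0, map_zero]
  refine ⟨⟨M, M', e1, e2⟩, Matrix.GeneralLinearGroup.mkOfDetNeZero Y₀ hdet, lam, κ, hlam0, hκ0,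
    ?_, ?_, ?_⟩
  · show lam • (G * M.map σ) = M
    rw [← smul_mul_assoc, e3]
  · show (Y₀.map j)ᵀ = ε • Y₀.map j
    rw [hY₀, Matrix.transpose_smul, hT, smul_comm]
  · show Mᵀ * M.map σ = κ • Y₀.map j
    rw [hY₀, smul_smul, mul_inv_cancel₀ hκ0, one_smul]

theorem orderOf_sigma (hF : Fintype.card F = q ^ 2) (σ : F ≃+* F) (hσ : ∀ a, σ a = a ^ q) :
    orderOf σ = 2 := by
  apply orderOf_eq_prime
  · ext a
    show σ (σ a) = a
    rw [hσ, hσ, ← pow_mul, ← pow_two, ← hF, FiniteField.pow_card]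
  · intro h
    apply sigE_ne_one hF
    rw [← h]
    ext a
    rw [sigE_apply, hσ]

theorem isU_sigma (hF : Fintype.card F = q ^ 2) (σ : F ≃+* F) (hσ : ∀ a, σ a = a ^ q)
    (g : Cfsg.GU n F q) : (g.1 : Mn)ᵀ * (g.1 : Mn).map σ = 1 := by
  have h1 : IsU n F q (g.1 : Mn) := (mem_GU_iff hF g.1).1 g.2
  have h2 : (g.1 : Mn).map (fun x => x ^ q) = (g.1 : Mn).map σ := by
    ext a b
    simp [hσ]
  unfold IsU at h1
  rwa [h2] at h1

/-- piece X1 (two statements): descent -/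
theorem descent_sym (hF : Fintype.card F = q ^ 2) (σ : F ≃+* F) (hσ : ∀ a, σ a = a ^ q)
    (j : F₀ →+* F) (hj : ∀ a, σ a = a ↔ a ∈ Set.range j) (g : Cfsg.GU n F q)
    (hg : (g.1 : Mn)ᵀ = (g.1 : Mn)) :
    ∃ (P : GL (Fin n) F) (g₀ : GL (Fin n) F₀) (lam κ : F), lam ≠ 0 ∧ κ ≠ 0 ∧
      lam • ((g.1 : Mn) * (P : Mn).map σ) = (P : Mn) ∧ (g₀ : M0)ᵀ = (g₀ : M0) ∧
      (P : Mn)ᵀ * (P : Mn).map σ = κ • ((g₀⁻¹ : GL (Fin n) F₀) : M0).map j := by
  obtain ⟨P, u, lam, κ, h1, h2, h3, h4, h5⟩ := descent_aux σ (orderOf_sigma hF σ hσ) j hj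
    (g.1 : Mn) 1 (by ring) (map_one σ) (by rw [one_smul]; exact hg) (isU_sigma hF σ hσ g)
  refine ⟨P, u⁻¹, lam, κ, h1, h2, h3, ?_, by rw [inv_inv]; exact h5⟩
  have hu : (u : M0)ᵀ = (u : M0) := by
    apply Matrix.map_injective j.injective
    rw [one_smul] at h4
    exact h4
  have e1 : ((u⁻¹ : GL (Fin n) F₀) : M0)ᵀ * (u : M0) = 1 := by
    calc ((u⁻¹ : GL (Fin n) F₀) : M0)ᵀ * (u : M0)
        = ((u⁻¹ : GL (Fin n) F₀) : M0)ᵀ * (u : M0)ᵀ := by rw [hu]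
      _ = 1 := by rw [← Matrix.transpose_mul, gl_mul_inv, Matrix.transpose_one]
  calc ((u⁻¹ : GL (Fin n) F₀) : M0)ᵀ
      = ((u⁻¹ : GL (Fin n) F₀) : M0)ᵀ * ((u : M0) * ((u⁻¹ : GL (Fin n) F₀) : M0)) := by
        rw [gl_mul_inv, mul_one]
    _ = ((u⁻¹ : GL (Fin n) F₀) : M0) := by rw [← mul_assoc, e1, one_mul]

theorem descent_skew (hF : Fintype.card F = q ^ 2) (h2 : (2 : F) ≠ 0) (σ : F ≃+* F)
    (hσ : ∀ a, σ a = a ^ q)
    (j : F₀ →+* F) (hj : ∀ a, σ a = a ↔ a ∈ Set.range j) (g : Cfsg.GU n F q)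
    (hg : (g.1 : Mn)ᵀ = -(g.1 : Mn)) :
    ∃ (P : GL (Fin n) F) (g₀ : GL (Fin n) F₀) (lam κ : F), lam ≠ 0 ∧ κ ≠ 0 ∧
      lam • ((g.1 : Mn) * (P : Mn).map σ) = (P : Mn) ∧ (g₀ : M0)ᵀ = -(g₀ : M0) ∧
      (P : Mn)ᵀ * (P : Mn).map σ = κ • ((g₀⁻¹ : GL (Fin n) F₀) : M0).map j := by
  obtain ⟨P, u, lam, κ, h1, h2, h3, h4, h5⟩ := descent_aux σ (orderOf_sigma hF σ hσ) j hj
    (g.1 : Mn) (-1) (by ring) (by rw [map_neg, map_one]) (by rw [neg_smul, one_smul]; exact hg)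
    (isU_sigma hF σ hσ g)
  refine ⟨P, u⁻¹, lam, κ, h1, h2, h3, ?_, by rw [inv_inv]; exact h5⟩
  have hu : (u : M0)ᵀ = -(u : M0) := by
    apply Matrix.map_injective j.injective
    rw [neg_smul, one_smul] at h4
    have h6 : (-(u : M0)).map j = -((u : M0).map j) := by
      ext a b
      simp
    show ((u : M0)ᵀ).map j = (-(u : M0)).map j
    rw [h6]
    exact h4
  have hu' : (u : M0) = -(u : M0)ᵀ := by rw [hu, neg_neg]
  have e1 : ((u⁻¹ : GL (Fin n) F₀) : M0)ᵀ * (u : M0) = -1 := by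
    calc ((u⁻¹ : GL (Fin n) F₀) : M0)ᵀ * (u : M0)
        = ((u⁻¹ : GL (Fin n) F₀) : M0)ᵀ * (-(u : M0)ᵀ) := by rw [← hu']
      _ = -1 := by
        rw [Matrix.mul_neg, ← Matrix.transpose_mul, gl_mul_inv, Matrix.transpose_one]
  calc ((u⁻¹ : GL (Fin n) F₀) : M0)ᵀ
      = ((u⁻¹ : GL (Fin n) F₀) : M0)ᵀ * ((u : M0) * ((u⁻¹ : GL (Fin n) F₀) : M0)) := by
        rw [gl_mul_inv, mul_one]
    _ = -((u⁻¹ : GL (Fin n) F₀) : M0) := by rw [← mul_assoc, e1, neg_mul, one_mul]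

end Cfsg.Agent.Lib.Helper97LBX1
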