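import Mathlib
import Cfsg.Prelude
import Cfsg.Agent.Lib.Helper42LBDefs
import Cfsg.Agent.Lib.Helper42LBUDefs
import Cfsg.Agent.Lib.Helper42LBMain
import Cfsg.Agent.Lib.Helper95LBS2gen
import Cfsg.Agent.Lib.Helper95LBV2
import Cfsg.Agent.Lib.Helper95LBV3
import Cfsg.Agent.Lib.Helper95LBV4
import Cfsg.Agent.Lib.Helper97LBV5
import Cfsg.Agent.Lib.Helper6LBW2
import Cfsg.Agent.Lib.Helper97LBW4
import Cfsg.Agent.Lib.Helper97LBX1
import Cfsg.Agent.Lib.Helper95LBX2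
import Cfsg.Agent.Lib.Helper95LBX3
import Cfsg.Agent.Lib.Helper6LBW1
import Cfsg.Agent.Lib.Helper54LBW3
import Cfsg.Agent.Lib.Helper42LBW5

set_option autoImplicit false

namespace Cfsg.Agent.Lib.Helper42LBUMain

open Matrix Cfsg Cfsg.Agent.Lib.Helper50Aut Cfsg.Agent.Lib.Helper50UAut
  Cfsg.Agent.Lib.Helper50UOut Cfsg.Agent.Lib.Helper50UTw
  Cfsg.Agent.Lib.Helper42BalA Cfsg.Agent.Lib.Helper49EichGen Cfsg.Agent.Lib.Helper42LBDefs
  Cfsg.Agent.Lib.Helper42LBUDefs Cfsg.Agent.Lib.Helper42LBMain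
  Cfsg.Agent.Lib.Helper60LBO1 Cfsg.Agent.Lib.Helper95LBO2 Cfsg.Agent.Lib.Helper97LBO3Gen
  Cfsg.Agent.Lib.Helper60LBO8 Cfsg.Agent.Lib.Helper76LBS1 Cfsg.Agent.Lib.Helper73LBS2
  Cfsg.Agent.Lib.Helper95LBS2gen Cfsg.Agent.Lib.Helper95LBV2 Cfsg.Agent.Lib.Helper95LBV3
  Cfsg.Agent.Lib.Helper95LBV4 Cfsg.Agent.Lib.Helper97LBV5 Cfsg.Agent.Lib.Helper6LBW2
  Cfsg.Agent.Lib.Helper97LBW4 Cfsg.Agent.Lib.Helper97LBX1 Cfsg.Agent.Lib.Helper95LBX2
  Cfsg.Agent.Lib.Helper95LBX3 Cfsg.Agent.Lib.Helper6LBW1 Cfsg.Agent.Lib.Helper54LBW3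
  Cfsg.Agent.Lib.Helper42LBW5

variable {F : Type*} [Field F] [Fintype F] {n : ℕ} {q : ℕ}
variable {F₀ : Type*} [Field F₀] [Fintype F₀]

local notation "SLn" => Matrix.SpecialLinearGroup (Fin n) F
local notation "Mn" => Matrix (Fin n) (Fin n) F
local notation "SL0" => Matrix.SpecialLinearGroup (Fin n) F₀
local notation "M0" => Matrix (Fin n) (Fin n) F₀
local notation "AutU" => MulAut (Cfsg.PSU n F q)
local notation "πU" => (QuotientGroup.mk : Cfsg.SU n F q → Cfsg.PSU n F q)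
local notation "π₀" => (QuotientGroup.mk : Matrix.SpecialLinearGroup (Fin n) F₀ →
  Matrix.SpecialLinearGroup (Fin n) F₀ ⧸ Subgroup.center (Matrix.SpecialLinearGroup (Fin n) F₀))

theorem H1U (hF : Fintype.card F = q ^ 2) (hn : 3 ≤ n) :
    Function.Injective (MulAut.conj : Cfsg.PSU n F q →* AutU) := by
  rw [injective_iff_map_eq_one]
  intro k hk
  induction k using QuotientGroup.induction_on with
  | H s =>
    have h1 : (cU (toGU s) : AutU) = 1 := by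
      rw [cU_toGU]; exact hk
    have h2 : toGU s ∈ (cU : Cfsg.GU n F q →* AutU).ker := h1
    rw [ker_cU hF hn] at h2
    obtain ⟨c, hc⟩ := h2
    rw [QuotientGroup.eq_one_iff, Subgroup.mem_center_iff]
    intro t
    apply Subtype.ext
    apply Subtype.ext
    have h3 : ((s : SLn) : Mn) = (c.1 : F) • (1 : Mn) := by
      have := congrArg (fun g : Cfsg.GU n F q => (g.1 : Mn)) hc
      simp only [scU_coe] at this
      exact this.symm
    show ((t : SLn) : Mn) * ((s : SLn) : Mn) = ((s : SLn) : Mn) * ((t : SLn) : Mn)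
    rw [h3]
    simp

/-- field type -/
theorem field_case_U {q₀ : ℕ} (hF : Fintype.card F = q ^ 2) (hF₀ : Fintype.card F₀ = q₀ ^ 2)
    (hn : 3 ≤ n) (hs : ¬ (n = 3 ∧ q = 2)) (τ : F ≃+* F) (j : F₀ →+* F)
    (hj : ∀ a, τ a = a ↔ a ∈ Set.range j) (hjq : ∀ x : F₀, j x ^ q = j (x ^ q₀))
    (p : ℕ) [Fact p.Prime] (hp2 : p ≠ 2) (hτ : orderOf τ = p)
    (A : Subgroup AutU) (hinn : ∀ k, MulAut.conj k ∈ A) :
    pPrimeCore p ↥(A ⊓ Subgroup.centralizer {(fU τ : AutU)}) ≠ ⊥ ↔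
      Nat.Coprime p (Nat.card ↥(MonoidHom.eqLocus (fU τ : AutU).toMonoidHom
        (MonoidHom.id (Cfsg.PSU n F q)))) := by
  have hp : p.Prime := Fact.out
  have hφ : (cU (1 : Cfsg.GU n F q) * fU τ : AutU) = fU τ := by rw [map_one, one_mul]
  have hP : (1 : F) • (((1 : Cfsg.GU n F q).1 : Mn) * ((1 : GL (Fin n) F) : Mn).map τ)
      = ((1 : GL (Fin n) F) : Mn) := by
    rw [one_smul]
    show (1 : Mn) * (1 : Mn).map τ = 1
    rw [one_mul]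
    ext a b
    by_cases hab : a = b
    · subst hab; simp
    · simp [Matrix.one_apply_ne hab]
  have hle := su_le (n := n) hF hF₀ j hjq
  have H2 : ∀ s ∈ imU q j (1 : GL (Fin n) F) (Cfsg.SU n F₀ q₀), (fU τ : AutU) (πU s) = πU s := by
    intro s hs'
    have := imU_H2 τ j hj (1 : Cfsg.GU n F q) 1 1 one_ne_zero hP _ s hs'
    rwa [hφ] at this
  constructor
  · intro h
    by_contra hc
    obtain ⟨t₀, ht₀, ho⟩ := su_t0 hF hF₀ hn τ j hj hjq p hc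
    have B : BalU p (imU q j (1 : GL (Fin n) F) (Cfsg.SU n F₀ q₀)) (fU τ : AutU) :=
      { H2 := H2
        H3 := by
          apply imU_H3 hF hn p hp j 1 _ hle
          intro N₀ hN₀
          by_cases hsm : n = 3 ∧ q₀ = 2
          · obtain ⟨rfl, rfl⟩ := hsm
            exact su_H3_small hF₀ p hp hp2 t₀ ht₀ ho N₀ hN₀
          · exact su_H3_big hF₀ hn hsm p t₀ ht₀ ho N₀ hN₀
        H4 := by
          intro k hk s hs'
          exact imU_H4 hF hn τ j hj (1 : Cfsg.GU n F q) 1 1 one_ne_zero hP _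
            (fun y₀ x μ hx s₀ hs₀ => su_norm hF hF₀ j hjq y₀ x μ hx s₀ hs₀) k (by rw [hφ]; exact hk)
            s hs'
        H5 := by
          intro β hβ
          refine imU_H5 hF hn hs τ j hj p (1 : Cfsg.GU n F q) 1 ?_ _ hle (by rw [hφ]; exact H2)
            (fun h τ' => uni_core_gen hF₀ j hn h τ') β hβ
          rw [hφ, ← map_pow, ← hτ, pow_orderOf_eq_one, map_one] }
    exact h (B.core (H1U hF hn) (imU_ne hF hn j 1 _ hle (su_ne hF₀ hn)) A hinn).1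
  · intro hc
    obtain ⟨s, hs', hs1⟩ := imU_ne (q := q) hF hn j 1 _ hle (su_ne hF₀ hn)
    exact core_ne_bot_of_fix (H1U hF hn) A hinn _ p hc ⟨πU s, H2 s hs', hs1⟩

/-- graph type, symmetric -/
theorem orth_case_U (hF : Fintype.card F = q ^ 2) (hn : 3 ≤ n) (hs : ¬ (n = 3 ∧ q = 2))
    (h2 : (2 : F) ≠ 0) (σ : F ≃+* F) (hσ : ∀ a, σ a = a ^ q) (j : F₀ →+* F)
    (hj : ∀ a, σ a = a ↔ a ∈ Set.range j) (g : Cfsg.GU n F q) (hg : (g.1 : Mn)ᵀ = (g.1 : Mn))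
    (hφ2 : (cU g * fU σ : AutU) ^ 2 = 1)
    (A : Subgroup AutU) (hinn : ∀ k, MulAut.conj k ∈ A) :
    pPrimeCore 2 ↥(A ⊓ Subgroup.centralizer {(cU g * fU σ : AutU)}) = ⊥ ∧
      ¬ Nat.Coprime 2 (Nat.card ↥(MonoidHom.eqLocus (cU g * fU σ : AutU).toMonoidHom
        (MonoidHom.id (Cfsg.PSU n F q)))) := by
  have : Fact (Nat.Prime 2) := ⟨Nat.prime_two⟩
  have h20 : (2 : F₀) ≠ 0 := by
    intro h0
    apply h2
    have := congrArg j h0
    rw [map_zero, map_ofNat] at this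
    exact this
  obtain ⟨P, g₀, lam, κ, hlam, hκ, hP, hg₀, hM⟩ := descent_sym hF σ hσ j hj g hg
  have hQ := qf_nondeg h20 g₀ hg₀
  have hle : ∀ s₀ ∈ eichS (qf ((g₀⁻¹ : GL (Fin n) F₀) : M0)), embS j P s₀ ∈ Cfsg.SU n F q :=
    fun s₀ hs₀ => iso_le hF σ hσ j hj P g₀ κ hκ hM s₀ (eichS_le_isoS h20 g₀ hg₀ hs₀)
  have H2 := imU_H2 (q := q) σ j hj g P lam hlam hP (eichS (qf ((g₀⁻¹ : GL (Fin n) F₀) : M0)))
  have B : BalU 2 (imU q j P (eichS (qf ((g₀⁻¹ : GL (Fin n) F₀) : M0)))) (cU g * fU σ : AutU) :=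
    { H2 := H2
      H3 := imU_H3 hF hn 2 Nat.prime_two j P _ hle
        (orth_H3 hn h20 _ hQ (TT_H3 h20 _ hQ (by simpa using hn)))
      H4 := by
        apply imU_H4 hF hn σ j hj g P lam hlam hP
        intro y₀ x μ hx s₀ hs₀
        obtain ⟨c, hc, e⟩ := iso_simil hF (by omega) σ hσ j hj P g₀ κ hκ hM y₀ x μ hx
        exact eichS_conj_simil _ y₀ c (qf_simil g₀ y₀ c e) s₀ hs₀
      H5 := imU_H5 hF hn hs σ j hj 2 g P hφ2 _ hle H2
        (fun h τ => orth_core_gen j hn h20 _ hQ h τ) }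
  exact B.core (H1U hF hn) (imU_ne hF hn j P _ hle (orth_ne hn h20 _ hQ)) A hinn

/-- graph type, skew -/
theorem symp_case_U (hF : Fintype.card F = q ^ 2) (hn : 3 ≤ n) (hs : ¬ (n = 3 ∧ q = 2))
    (h2 : (2 : F) ≠ 0) (σ : F ≃+* F) (hσ : ∀ a, σ a = a ^ q) (j : F₀ →+* F)
    (hj : ∀ a, σ a = a ↔ a ∈ Set.range j) (g : Cfsg.GU n F q) (hg : (g.1 : Mn)ᵀ = -(g.1 : Mn))
    (hφ2 : (cU g * fU σ : AutU) ^ 2 = 1)
    (A : Subgroup AutU) (hinn : ∀ k, MulAut.conj k ∈ A) :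
    pPrimeCore 2 ↥(A ⊓ Subgroup.centralizer {(cU g * fU σ : AutU)}) = ⊥ ∧
      ¬ Nat.Coprime 2 (Nat.card ↥(MonoidHom.eqLocus (cU g * fU σ : AutU).toMonoidHom
        (MonoidHom.id (Cfsg.PSU n F q)))) := by
  have : Fact (Nat.Prime 2) := ⟨Nat.prime_two⟩
  have h20 : (2 : F₀) ≠ 0 := by
    intro h0
    apply h2
    have := congrArg j h0
    rw [map_zero, map_ofNat] at this
    exact this
  obtain ⟨P, g₀, lam, κ, hlam, hκ, hP, hg₀, hM⟩ := descent_skew hF h2 σ hσ j hj g hg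
  have hle : ∀ s₀ ∈ isoS (g₀ : M0), embS j P s₀ ∈ Cfsg.SU n F q :=
    fun s₀ hs₀ => iso_le hF σ hσ j hj P g₀ κ hκ hM s₀ hs₀
  have H2 := imU_H2 (q := q) σ j hj g P lam hlam hP (isoS (g₀ : M0))
  have B : BalU 2 (imU q j P (isoS (g₀ : M0))) (cU g * fU σ : AutU) :=
    { H2 := H2
      H3 := imU_H3 hF hn 2 Nat.prime_two j P _ hle (symp_H3 hn h20 g₀ hg₀)
      H4 := by
        apply imU_H4 hF hn σ j hj g P lam hlam hP
        intro y₀ x μ hx s₀ hs₀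
        obtain ⟨c, hc, e⟩ := iso_simil hF (by omega) σ hσ j hj P g₀ κ hκ hM y₀ x μ hx
        exact isoS_conj_simil g₀ y₀ c hc e s₀ hs₀
      H5 := imU_H5 hF hn hs σ j hj 2 g P hφ2 _ hle H2
        (fun h τ => symp_core_gen j (by omega) h20 g₀ hg₀ h τ) }
  exact B.core (H1U hF hn) (imU_ne hF hn j P _ hle (symp_ne hn h20 g₀ hg₀)) A hinn

end Cfsg.Agent.Lib.Helper42LBUMain
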