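import Mathlib
import Cfsg.Agent.Lib.Helper17UWitt
import Cfsg.Agent.Lib.Helper7SU
import Cfsg.Agent.S0755

set_option autoImplicit false
open Cfsg

namespace Cfsg.Agent.Lib.Helper42SUInv

open Matrix Cfsg.Agent.Lib.Helper7Herm Cfsg.Agent.Lib.Helper7GU Cfsg.Agent.Lib.Helper17HermC
  Cfsg.Agent.Lib.Helper95Herm Cfsg.Agent.Lib.Helper17Heis Cfsg.Agent.Lib.Helper95Basic
  Cfsg.Agent.Lib.Helper17UWitt

variable {F : Type*} [Field F] [Fintype F] {q : ℕ} (hF : Fintype.card F = q ^ 2) (n : ℕ)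

local notation "H" => Cfsg.hermForm n F q

include hF in
theorem adj (M : Matrix (Fin n) (Fin n) F) (hM : ∀ u v, H (M *ᵥ u) (M *ᵥ v) = H u v)
    (hM2 : M * M = 1) (x y : Fin n → F) : H ((M - 1) *ᵥ x) y = H x ((M - 1) *ᵥ y) := by
  have hH := herm_concrete hF n
  rw [sub_mulVec, sub_mulVec, one_mulVec, one_mulVec, hH.sub_left, hH.sub_right]
  congr 1
  have := hM x (M *ᵥ y)
  rw [mulVec_mulVec, hM2, one_mulVec] at this
  exact this

omit [Fintype F] in
theorem sq_zero [CharP F 2] (M : Matrix (Fin n) (Fin n) F) (hM2 : M * M = 1) :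
    (M - 1) * (M - 1) = 0 := by
  have h2 : (2 : F) = 0 := CharP.cast_eq_zero F 2
  have h3 : ∀ A : Matrix (Fin n) (Fin n) F, A + A = 0 := by
    intro A
    rw [← two_smul F A, h2, zero_smul]
  have : (M - 1) * (M - 1) = M * M - (M + M) + 1 := by noncomm_ring
  rw [this, hM2, h3 M, sub_zero, h3]

include hF in
theorem li_of_dual {r : ℕ} (u w : Fin r → (Fin n → F))
    (h : ∀ i j, H (u i) (w j) = if i = j then 1 else 0) : LinearIndependent F w := by
  have hH := herm_concrete hF n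
  rw [Fintype.linearIndependent_iff]
  intro c hc j
  have h1 : H (u j) (∑ i, c i • w i) = sig hF (c j) := by
    rw [h_sum_right hF]
    simp only [hH.smul_right, h]
    simp
  rw [hc, hH.zero_right] at h1
  have := congrArg (sig hF) h1
  rw [sig_sig, map_zero] at this
  exact this.symm

include hF in
/-- Normal form of a unitary involution in characteristic two. -/
theorem exists_nf [CharP F 2] (M : Matrix (Fin n) (Fin n) F)
    (hM : ∀ u v, H (M *ᵥ u) (M *ᵥ v) = H u v) (hM2 : M * M = 1) (r : ℕ) (hr : (M - 1).rank = r) :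
    ∃ u : Fin r → (Fin n → F),
      (∀ i j, H (u i) ((M - 1) *ᵥ u j) = if i = j then 1 else 0) ∧
      (∀ x, (M - 1) *ᵥ x = ∑ i, H x ((M - 1) *ᵥ u i) • ((M - 1) *ᵥ u i)) := by
  have hH := herm_concrete hF n
  set N : (Fin n → F) →ₗ[F] (Fin n → F) := (M - 1).mulVecLin with hN
  have hNa : ∀ x, (M - 1) *ᵥ x = N x := fun x => rfl
  have hadj : ∀ x y, H (N x) y = H x (N y) := adj hF n M hM hM2
  obtain ⟨C, hC⟩ := Submodule.exists_isCompl (LinearMap.ker N)
  have hfin : Module.finrank F C = r := by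
    have h1 := Submodule.finrank_add_eq_of_isCompl hC
    have h2 := LinearMap.finrank_range_add_finrank_ker N
    have hr' : Module.finrank F (LinearMap.range N) = r := hr
    omega
  set B0 := (hB hF n).comp N with hB0
  have hB0a : ∀ x y, B0 x y = H y (N x) := fun x y => rfl
  have hS : (B0.domRestrict₁₂ C C).IsSymm := by
    refine ⟨fun x y => ?_⟩
    rw [LinearMap.domRestrict₁₂_apply, LinearMap.domRestrict₁₂_apply, hB0a, hB0a, ← hadj]
    exact (hH.herm _ _).symm
  have key : ∀ c ∈ C, (∀ c' ∈ C, H c' (N c) = 0) → c = 0 := by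
    intro c hc h
    have h1 : N c = 0 := by
      by_contra hne
      obtain ⟨x, hx⟩ := hH.nondeg _ hne
      apply hx
      have hx' : x ∈ LinearMap.ker N ⊔ C := by rw [hC.sup_eq_top]; trivial
      obtain ⟨k, hk, c', hc', rfl⟩ := Submodule.mem_sup.mp hx'
      rw [hH.add_left, h c' hc', ← hadj, LinearMap.mem_ker.mp hk, hH.zero_left, add_zero]
    have h2 : c ∈ LinearMap.ker N ⊓ C := ⟨h1, hc⟩
    rw [hC.inf_eq_bot] at h2
    exact (Submodule.mem_bot F).mp h2
  have hND : (B0.domRestrict₁₂ C C).Nondegenerate := by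
    constructor
    · intro x hx
      apply Subtype.ext
      apply key _ x.2
      intro c' hc'
      exact hx ⟨c', hc'⟩
    · intro y hy
      apply Subtype.ext
      apply key _ y.2
      intro c' hc'
      have := hy ⟨c', hc'⟩
      rw [LinearMap.domRestrict₁₂_apply, hB0a, ← hadj] at this
      rw [hH.herm, this, map_zero]
  obtain ⟨b, hb⟩ := Cfsg.Agent.S0755.result (sig hF) (sig_ne_id hF) (sig_sig hF) _ hS hND
  subst hfin
  have hb' : ∀ i j, H (b i : Fin n → F) (N (b j)) = if i = j then 1 else 0 := by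
    intro i j
    have := hb j i
    rw [LinearMap.domRestrict₁₂_apply, hB0a] at this
    rw [this]
    simp only [eq_comm]
  refine ⟨fun i => (b i : Fin n → F), ?_, ?_⟩
  · intro i j
    rw [hNa]
    exact hb' i j
  · intro x
    simp only [hNa]
    have hx' : x ∈ LinearMap.ker N ⊔ C := by rw [hC.sup_eq_top]; trivial
    obtain ⟨k, hk, c, hc, rfl⟩ := Submodule.mem_sup.mp hx'
    obtain ⟨cc, h6⟩ : ∃ cc : Fin (Module.finrank F C) → F, ∑ i, cc i • (b i : Fin n → F) = c := by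
      refine ⟨fun i => b.repr ⟨c, hc⟩ i, ?_⟩
      have h5 := b.sum_repr ⟨c, hc⟩
      have h6 := congrArg Subtype.val h5
      simp only [Submodule.coe_sum, Submodule.coe_smul] at h6
      exact h6
    have h7 : ∀ i, H (k + c) (N (b i)) = cc i := by
      intro i
      rw [hH.add_left, ← hadj, LinearMap.mem_ker.mp hk, hH.zero_left, zero_add, ← h6, h_sum_left]
      simp only [hH.smul_left, hb']
      simp
    simp only [h7]
    rw [map_add, LinearMap.mem_ker.mp hk, zero_add, ← h6, map_sum]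
    simp only [map_smul]

include hF in
theorem iso_range [CharP F 2] (M : Matrix (Fin n) (Fin n) F)
    (hM : ∀ u v, H (M *ᵥ u) (M *ᵥ v) = H u v) (hM2 : M * M = 1) (x y : Fin n → F) :
    H ((M - 1) *ᵥ x) ((M - 1) *ᵥ y) = 0 := by
  rw [adj hF n M hM hM2, mulVec_mulVec, sq_zero n M hM2, zero_mulVec,
    (herm_concrete hF n).zero_right]

include hF in
theorem conj_GU [CharP F 2] (M M' : Matrix (Fin n) (Fin n) F)
    (hM : ∀ u v, H (M *ᵥ u) (M *ᵥ v) = H u v) (hM2 : M * M = 1)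
    (hM' : ∀ u v, H (M' *ᵥ u) (M' *ᵥ v) = H u v) (hM2' : M' * M' = 1)
    (hr : (M - 1).rank = (M' - 1).rank) :
    ∃ g : GL (Fin n) F, g ∈ Cfsg.GU n F q ∧
      (g : Matrix (Fin n) (Fin n) F) * M = M' * (g : Matrix (Fin n) (Fin n) F) := by
  obtain ⟨u, hu1, hu2⟩ := exists_nf hF n M hM hM2 _ hr
  obtain ⟨u', hu1', hu2'⟩ := exists_nf hF n M' hM' hM2' _ rfl
  obtain ⟨g, hg, hg2⟩ := witt_fam_U hF n (fun i => (M - 1) *ᵥ u i) (fun i => (M' - 1) *ᵥ u' i)
    (li_of_dual hF n u _ hu1) (li_of_dual hF n u' _ hu1') (by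
      intro i j
      rw [iso_range hF n M hM hM2, iso_range hF n M' hM' hM2'])
  refine ⟨g, hg, ?_⟩
  have hg' : ∀ u v, H ((g : Matrix (Fin n) (Fin n) F) *ᵥ u) ((g : Matrix (Fin n) (Fin n) F) *ᵥ v)
      = H u v := hg
  have h1 : (g : Matrix (Fin n) (Fin n) F) * (M - 1) = (M' - 1) * (g : Matrix (Fin n) (Fin n) F) := by
    apply Matrix.toLin'.injective
    apply LinearMap.ext
    intro x
    rw [Matrix.toLin'_apply, Matrix.toLin'_apply, ← mulVec_mulVec, ← mulVec_mulVec, hu2, hu2',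
      mulVec_sum]
    apply Finset.sum_congr rfl
    intro i _
    have h3 : H ((g : Matrix (Fin n) (Fin n) F) *ᵥ x) ((M' - 1) *ᵥ u' i)
        = H x ((M - 1) *ᵥ u i) := by
      rw [← hg2 i, hg']
    rw [h3, mulVec_smul, hg2 i]
  have h2 : (g : Matrix (Fin n) (Fin n) F) * M
      = (g : Matrix (Fin n) (Fin n) F) * (M - 1) + (g : Matrix (Fin n) (Fin n) F) := by
    noncomm_ring
  rw [h2, h1]
  noncomm_ring

include hF in
theorem exists_cent [CharP F 2] (M : Matrix (Fin n) (Fin n) F)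
    (hM : ∀ u v, H (M *ᵥ u) (M *ᵥ v) = H u v) (hM2 : M * M = 1) (u : Fin n → F)
    (hu : H u ((M - 1) *ᵥ u) = 1) (μ : F) (hμ : μ ^ (q + 1) = 1) :
    ∃ c : Matrix (Fin n) (Fin n) F, (∀ x y, H (c *ᵥ x) (c *ᵥ y) = H x y) ∧ c.det = μ * μ ∧
      c * M = M * c := by
  have hH := herm_concrete hF n
  have h2 : (2 : F) = 0 := CharP.cast_eq_zero F 2
  obtain ⟨r, hr⟩ : ∃ r, r = (M - 1) *ᵥ u := ⟨_, rfl⟩
  obtain ⟨t, ht⟩ : ∃ t, t = H u u := ⟨_, rfl⟩
  rw [← hr] at hu
  have htt : sig hF t = t := by rw [ht]; exact (hH.herm u u).symm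
  have hrr : H r r = 0 := by rw [hr]; exact iso_range hF n M hM hM2 _ _
  have hru : H r u = 1 := by rw [hH.herm, hu, map_one]
  have hNr : (M - 1) *ᵥ r = 0 := by rw [hr, mulVec_mulVec, sq_zero n M hM2, zero_mulVec]
  obtain ⟨β, hβ⟩ := exists_beta hH (1 + t) (by
    rw [map_add, map_one, htt]; linear_combination (1 + t) * h2)
  obtain ⟨w1, hw1⟩ : ∃ w1, w1 = u + β • r := ⟨_, rfl⟩
  obtain ⟨w2, hw2⟩ : ∃ w2, w2 = u + (β + 1) • r := ⟨_, rfl⟩
  have h11 : H w1 w1 = 1 := by
    simp only [hw1, hH.add_left, hH.add_right, hH.smul_left, hH.smul_right, hrr, hru, hu, ← ht]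
    linear_combination hβ + (t + β) * h2
  have h22 : H w2 w2 = 1 := by
    simp only [hw2, hH.add_left, hH.add_right, hH.smul_left, hH.smul_right, hrr, hru, hu, ← ht,
      map_add, map_one]
    linear_combination hβ + (t + β + 1) * h2
  have h21 : H w2 w1 = 0 := by
    simp only [hw1, hw2, hH.add_left, hH.add_right, hH.smul_left, hH.smul_right, hrr, hru, hu, ← ht,
      map_add, map_one]
    linear_combination hβ + (t + β + 1) * h2
  have hw : w1 + w2 = r := by
    have : w1 + w2 = (2 : F) • u + (2 : F) • (β • r) + r := by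
      rw [hw1, hw2]; module
    rw [this, h2, zero_smul, zero_smul, zero_add, zero_add]
  have hN1 : (M - 1) *ᵥ w1 = r := by
    rw [hw1, mulVec_add, mulVec_smul, hNr, smul_zero, add_zero, hr]
  have hN2 : (M - 1) *ᵥ w2 = r := by
    rw [hw2, mulVec_add, mulVec_smul, hNr, smul_zero, add_zero, hr]
  have he : ∀ w : Fin n → F, H w w = 1 →
      (μ - 1) + (μ - 1) ^ q + (μ - 1) * (μ - 1) ^ q * H w w = 0 := by
    intro w hw
    rw [hw, ← sig_apply hF, map_sub, map_one, sig_apply]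
    linear_combination hμ
  have hc : ∀ x, (Cfsg.unitaryTransvection n q w1 (μ - 1) * Cfsg.unitaryTransvection n q w2 (μ - 1)) *ᵥ x
      = x + ((μ - 1) * H x w1) • w1 + ((μ - 1) * H x w2) • w2 := by
    intro x
    rw [← mulVec_mulVec, unitaryTransvection_mulVec, unitaryTransvection_mulVec, hH.add_left,
      hH.smul_left, h21]
    module
  refine ⟨Cfsg.unitaryTransvection n q w1 (μ - 1) * Cfsg.unitaryTransvection n q w2 (μ - 1),
    ?_, ?_, ?_⟩
  · intro x y
    rw [← mulVec_mulVec, ← mulVec_mulVec, qrefl_isom hF n w1 _ (he w1 h11),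
      qrefl_isom hF n w2 _ (he w2 h22)]
  · rw [det_mul, unitaryTransvection_det, unitaryTransvection_det, h11, h22]
    ring
  · obtain ⟨c, hcdef⟩ : ∃ c, c = Cfsg.unitaryTransvection n q w1 (μ - 1) *
      Cfsg.unitaryTransvection n q w2 (μ - 1) := ⟨_, rfl⟩
    rw [← hcdef] at hc ⊢
    have h1 : c * (M - 1) = (M - 1) * c := by
      apply Matrix.toLin'.injective
      apply LinearMap.ext
      intro x
      rw [Matrix.toLin'_apply, Matrix.toLin'_apply, ← mulVec_mulVec, ← mulVec_mulVec, hc, hc,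
        mulVec_add, mulVec_add, mulVec_smul, mulVec_smul, hN1, hN2, adj hF n M hM hM2,
        adj hF n M hM hM2, hN1, hN2]
      have hxr : H x r = H x w1 + H x w2 := by rw [← hH.add_right, hw]
      rw [add_assoc, add_assoc, ← smul_add, hw, ← add_smul, hxr]
      congr 2
      ring
    have h3 : c * M = c * (M - 1) + c := by noncomm_ring
    rw [h3, h1]
    noncomm_ring

include hF in
theorem conj_SU [CharP F 2] (M M' : Matrix (Fin n) (Fin n) F)
    (hM : ∀ u v, H (M *ᵥ u) (M *ᵥ v) = H u v) (hM2 : M * M = 1)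
    (hM' : ∀ u v, H (M' *ᵥ u) (M' *ᵥ v) = H u v) (hM2' : M' * M' = 1) (hne : M' ≠ 1)
    (hr : (M - 1).rank = (M' - 1).rank) :
    ∃ g : Matrix (Fin n) (Fin n) F, g.det = 1 ∧ (∀ x y, H (g *ᵥ x) (g *ᵥ y) = H x y) ∧
      g * M = M' * g := by
  obtain ⟨g0, hg0, hg1⟩ := conj_GU hF n M M' hM hM2 hM' hM2' hr
  have hg' : ∀ u v, H ((g0 : Matrix (Fin n) (Fin n) F) *ᵥ u)
      ((g0 : Matrix (Fin n) (Fin n) F) *ᵥ v) = H u v := hg0
  obtain ⟨d, hd⟩ : ∃ d, d = (g0 : Matrix (Fin n) (Fin n) F).det := ⟨_, rfl⟩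
  have hd1 : d ^ (q + 1) = 1 := by
    rw [hd]
    exact Cfsg.Agent.Lib.Helper7SU.det_pow_of_isU hF _ ((mem_GU_iff hF g0).mp hg0)
  have hd0 : d ≠ 0 := by
    rintro rfl
    rw [zero_pow (by omega)] at hd1
    exact zero_ne_one hd1
  have hq2 : 2 ∣ q := by
    rw [← CharP.cast_eq_zero_iff F 2 q]
    have h1 : ((q ^ 2 : ℕ) : F) = 0 := by rw [← hF]; exact Nat.cast_card_eq_zero F
    rw [Nat.cast_pow] at h1
    exact pow_eq_zero_iff (two_ne_zero) |>.mp h1
  obtain ⟨k, hk⟩ := hq2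
  have hdi : (d⁻¹) ^ (q + 1) = 1 := by rw [inv_pow, hd1, inv_one]
  obtain ⟨u', hu1', hu2'⟩ := exists_nf hF n M' hM' hM2' _ rfl
  have hpos : 0 < (M' - 1).rank := by
    by_contra h0
    have h0' : (M' - 1).rank = 0 := by omega
    apply hne
    have : M' - 1 = 0 := by
      apply Matrix.toLin'.injective
      apply LinearMap.ext
      intro x
      rw [toLin'_apply, hu2' x]
      haveI : IsEmpty (Fin (M' - 1).rank) := by rw [h0']; infer_instance
      simp
    exact sub_eq_zero.mp this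
  obtain ⟨c, hc1, hc2, hc3⟩ := exists_cent hF n M' hM' hM2' (u' ⟨0, hpos⟩) (by rw [hu1']; simp)
    ((d⁻¹) ^ (k + 1)) (by rw [← pow_mul, mul_comm, pow_mul, hdi, one_pow])
  refine ⟨c * (g0 : Matrix (Fin n) (Fin n) F), ?_, ?_, ?_⟩
  · rw [det_mul, hc2, ← hd, ← pow_add]
    have : k + 1 + (k + 1) = (q + 1) + 1 := by omega
    rw [this, pow_succ, hdi, one_mul, inv_mul_cancel₀ hd0]
  · intro x y
    rw [← mulVec_mulVec, ← mulVec_mulVec, hc1, hg']
  · rw [mul_assoc, hg1, ← mul_assoc, hc3, mul_assoc]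

end Cfsg.Agent.Lib.Helper42SUInv
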