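import Mathlib

set_option autoImplicit false

namespace Cfsg.Agent.Lib.Helper43Automizer

open Subgroup

/-- If an abelian Sylow `p`-subgroup contains an element `x` with `x⁻¹ ≠ x` conjugate to its inverse,
then the automizer `N(P)/C(P)` has even order. -/
theorem even_automizer_of_ne_inv {G : Type*} [Group G] [Finite G] {p : ℕ} [Fact p.Prime]
    (P : Sylow p G) (hP : IsMulCommutative (P : Subgroup G)) (x : G) (hx : x ∈ (P : Subgroup G))
    (hx1 : x⁻¹ ≠ x) (hconj : IsConj x x⁻¹) :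
    2 ∣ ((centralizer ((P : Subgroup G) : Set G)).subgroupOf
      (normalizer ((P : Subgroup G) : Set G))).index := by
  obtain ⟨g, hg⟩ := isConj_iff.1 hconj
  have hy : (g⁻¹)⁻¹ * x * g⁻¹ ∈ (P : Subgroup G) := by
    rw [inv_inv, hg]; exact inv_mem hx
  obtain ⟨n, hn, hnx⟩ := P.conj_eq_normalizer_conj_of_mem x g⁻¹ hx hy
  rw [inv_inv, hg] at hnx
  -- hnx : x⁻¹ = n⁻¹ * x * n
  set K := (centralizer ((P : Subgroup G) : Set G)).subgroupOf
      (normalizer ((P : Subgroup G) : Set G)) with hK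
  let nn : normalizer ((P : Subgroup G) : Set G) := ⟨n, hn⟩
  have hdvd : orderOf (QuotientGroup.mk nn : _ ⧸ K) ∣ K.index := by
    rw [Subgroup.index]
    exact orderOf_dvd_natCard _
  refine dvd_trans ?_ hdvd
  by_contra hodd
  have hodd' : Odd (orderOf (QuotientGroup.mk nn : _ ⧸ K)) := by
    rw [← Nat.not_even_iff_odd, even_iff_two_dvd]; exact hodd
  obtain ⟨m, hm⟩ := hodd'
  have h1 : (QuotientGroup.mk nn : _ ⧸ K) ^ (2 * m + 1) = 1 := by
    rw [← hm]; exact pow_orderOf_eq_one _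
  rw [← QuotientGroup.mk_pow, QuotientGroup.eq_one_iff] at h1
  have h2 : n ^ (2 * m + 1) ∈ centralizer ((P : Subgroup G) : Set G) := by
    have := Subgroup.mem_subgroupOf.1 h1
    simpa [nn] using this
  have h3 : Commute (n ^ (2 * m + 1)) x := (h2 x hx).symm
  have h4 : Commute (n ^ 2) x := by
    have e1 : n * x⁻¹ = x * n := by rw [hnx]; group
    have e2 : n * x = x⁻¹ * n := by
      have : x⁻¹ * (x * n) * x = x⁻¹ * (n * x⁻¹) * x := by rw [e1]
      simp only [mul_assoc, inv_mul_cancel_left, inv_mul_cancel, mul_one] at this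
      exact this
    show n ^ 2 * x = x * n ^ 2
    calc n ^ 2 * x = n * (n * x) := by rw [pow_two, mul_assoc]
      _ = n * (x⁻¹ * n) := by rw [e2]
      _ = (n * x⁻¹) * n := by rw [mul_assoc]
      _ = x * n ^ 2 := by rw [e1, pow_two, mul_assoc]
  have h5 : Commute n x := by
    have h6 : Commute ((n ^ 2) ^ m) x := h4.pow_left m
    rw [pow_succ, pow_mul] at h3
    have : Commute (((n ^ 2) ^ m)⁻¹ * ((n ^ 2) ^ m * n)) x := h6.inv_left.mul_left h3
    simpa using this
  apply hx1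
  rw [hnx, mul_assoc, ← h5.eq, inv_mul_cancel_left]

/-- If an abelian Sylow `p`-subgroup (`p` odd) contains a nontrivial element conjugate to its inverse,
then the automizer `N(P)/C(P)` has even order. -/
theorem even_automizer {G : Type*} [Group G] [Finite G] {p : ℕ} [Fact p.Prime] (hp : p ≠ 2)
    (P : Sylow p G) (hP : IsMulCommutative (P : Subgroup G)) (x : G) (hx : x ∈ (P : Subgroup G))
    (hx1 : x ≠ 1) (hconj : IsConj x x⁻¹) :
    2 ∣ ((centralizer ((P : Subgroup G) : Set G)).subgroupOf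
      (normalizer ((P : Subgroup G) : Set G))).index := by
  refine even_automizer_of_ne_inv P hP x hx (fun h7 => ?_) hconj
  have h8 : x ^ 2 = 1 := by
    rw [pow_two]; nth_rewrite 1 [← h7]; exact inv_mul_cancel x
  obtain ⟨k, hk⟩ := (IsPGroup.iff_orderOf.1 P.2) ⟨x, hx⟩
  rw [Subgroup.orderOf_mk] at hk
  have h9 : orderOf x ∣ 2 := orderOf_dvd_of_pow_eq_one h8
  have hpp : p.Prime := Fact.out
  have h10 : Nat.Coprime (p ^ k) 2 :=
    Nat.Coprime.pow_left k ((Nat.coprime_primes hpp Nat.prime_two).2 hp)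
  rw [hk] at h9
  have h11 : p ^ k = 1 := Nat.Coprime.eq_one_of_dvd h10 h9
  rw [h11] at hk
  exact hx1 (orderOf_eq_one_iff.1 hk)

/-- Every `p`-subgroup is conjugate into a given Sylow `p`-subgroup. -/
theorem exists_conj_le {G : Type*} [Group G] [Finite G] {p : ℕ} [Fact p.Prime] (P : Sylow p G)
    (H : Subgroup G) (hH : IsPGroup p H) : ∃ g : G, ∀ a ∈ H, g⁻¹ * a * g ∈ (P : Subgroup G) := by
  obtain ⟨Q, hQ⟩ := hH.exists_le_sylow
  obtain ⟨g, rfl⟩ := MulAction.exists_smul_eq G P Q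
  refine ⟨g, fun a ha => ?_⟩
  have h1 := hQ ha
  rw [Sylow.coe_subgroup_smul, Subgroup.mem_pointwise_smul_iff_inv_smul_mem] at h1
  simpa [MulAut.smul_def, MulAut.conj_apply] using h1

theorem isPGroup_zpowers {G : Type*} [Group G] {p : ℕ} (x : G) (k : ℕ) (h : x ^ (p ^ k) = 1) :
    IsPGroup p (zpowers x) := by
  rintro ⟨y, hy⟩
  obtain ⟨j, rfl⟩ := mem_zpowers_iff.1 hy
  refine ⟨k, Subtype.ext ?_⟩
  simp only [SubmonoidClass.mk_pow, OneMemClass.coe_one]
  rw [← zpow_natCast, ← zpow_mul, mul_comm, zpow_mul, zpow_natCast, h, one_zpow]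

/-- Version for an arbitrary `p`-element `c` of the group, not assumed to lie in `P`. -/
theorem even_automizer_of_pElement {G : Type*} [Group G] [Finite G] {p : ℕ} [Fact p.Prime]
    (P : Sylow p G) (hP : IsMulCommutative (P : Subgroup G)) (c : G) (k : ℕ) (hc : c ^ (p ^ k) = 1)
    (hc1 : c⁻¹ ≠ c) (hconj : IsConj c c⁻¹) :
    2 ∣ ((centralizer ((P : Subgroup G) : Set G)).subgroupOf
      (normalizer ((P : Subgroup G) : Set G))).index := by
  obtain ⟨g, hg⟩ := exists_conj_le P (zpowers c) (isPGroup_zpowers c k hc)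
  refine even_automizer_of_ne_inv P hP (g⁻¹ * c * g) (hg c (mem_zpowers c)) ?_ ?_
  · intro h
    apply hc1
    have h2 : g * (g⁻¹ * c * g)⁻¹ * g⁻¹ = g * (g⁻¹ * c * g) * g⁻¹ := by rw [h]
    simpa [mul_assoc] using h2
  · obtain ⟨a, ha⟩ := isConj_iff.1 hconj
    refine isConj_iff.2 ⟨g⁻¹ * a * g, ?_⟩
    have : (g⁻¹ * c * g)⁻¹ = g⁻¹ * c⁻¹ * g := by group
    rw [this, ← ha]
    group

/-- The automizer of an abelian Sylow `p`-subgroup has order prime to `p`. -/
theorem automizer_dvd_index {G : Type*} [Group G] [Finite G] {p : ℕ} [Fact p.Prime]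
    (P : Sylow p G) (hP : IsMulCommutative (P : Subgroup G)) :
    ((centralizer ((P : Subgroup G) : Set G)).subgroupOf
      (normalizer ((P : Subgroup G) : Set G))).index ∣ (P : Subgroup G).index :=
  (relIndex_dvd_of_le_left _ P.le_centralizer).trans (relIndex_dvd_index_of_le le_normalizer)

end Cfsg.Agent.Lib.Helper43Automizer
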