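import Cfsg.Agent.Lib.Helper43BPDefs
import Cfsg.Agent.Lib.Helper72BPC3
import Cfsg.Agent.Lib.Helper72BPCycbasic

set_option autoImplicit false

/-! Project 43, piece `glueid`. -/

namespace Cfsg.Agent.Lib.Helper60BPGlueid

open Cfsg.Agent.Lib.Helper43BP
open Cfsg.Agent.Lib.Helper72BPC3 Cfsg.Agent.Lib.Helper72BPCycbasic

variable {Ω : Type*} [Fintype Ω] [DecidableEq Ω]

variable {P : Type*} [Group P]

theorem ext1_mul {A : Set Ω} (θ : ↥(altOn A) →* P) {x y : Equiv.Perm Ω} (hx : x ∈ altOn A)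
    (hy : y ∈ altOn A) : ext1 θ (x * y) = ext1 θ x * ext1 θ y := by
  rw [ext1_apply θ hx, ext1_apply θ hy, ext1_apply θ (mul_mem hx hy), ← map_mul]
  rfl

theorem ext1_inv {A : Set Ω} (θ : ↥(altOn A) →* P) {x : Equiv.Perm Ω} (hx : x ∈ altOn A) :
    ext1 θ x⁻¹ = (ext1 θ x)⁻¹ := by
  rw [ext1_apply θ hx, ext1_apply θ (inv_mem hx), ← map_inv]
  rfl

theorem ext1_zpow {A : Set Ω} (θ : ↥(altOn A) →* P) {x : Equiv.Perm Ω} (hx : x ∈ altOn A)
    (n : ℤ) : ext1 θ (x ^ n) = (ext1 θ x) ^ n := by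
  rw [ext1_apply θ hx, ext1_apply θ (zpow_mem hx n), ← map_zpow]
  rfl

theorem zpow_unit_unit {G : Type*} [Group G] (x : G) (ε : ℤˣ) : (x ^ (ε : ℤ)) ^ (ε : ℤ) = x := by
  rcases Int.units_eq_one_or ε with rfl | rfl <;> simp

theorem glue_id (A B : Set Ω) (a b : Ω) (hab : a ≠ b) (ha : a ∈ A ∩ B) (hb : b ∈ A ∩ B)
    (θA : ↥(altOn A) →* P) (θB : ↥(altOn B) →* P)
    (cI : Equiv.Perm Ω) (εI : ℤˣ) (hcI : Cyc a b ((A ∩ B) \ {a, b}) cI εI)
    (i1 : Ω) (hi1 : i1 ∈ (A ∩ B) \ {a, b})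
    (E1 : ext1 θA cI = ext1 θB cI) (E2 : ext1 θA (c3 a b i1) = ext1 θB (c3 a b i1)) :
    ∀ i ∈ (A ∩ B) \ {a, b}, ext1 θA (c3 a b i) = ext1 θB (c3 a b i) := by
  have hcIA : cI ∈ altOn A := Cyc_mem hcI A (fun x hx => hx.1.1) ha.1 hb.1
  have hcIB : cI ∈ altOn B := Cyc_mem hcI B (fun x hx => hx.1.2) ha.2 hb.2
  have key : ∀ k : ℕ, (cI ^ k) i1 ∈ (A ∩ B) \ {a, b} ∧
      ext1 θA (c3 a b ((cI ^ k) i1)) = ext1 θB (c3 a b ((cI ^ k) i1)) := by
    intro k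
    induction k with
    | zero => exact ⟨by simpa using hi1, by simpa using E2⟩
    | succ k ih =>
      obtain ⟨hj, ih⟩ := ih
      set j := (cI ^ k) i1 with hjdef
      have hstep : (cI ^ (k + 1)) i1 = cI j := by
        rw [pow_succ', Equiv.Perm.mul_apply]
      rw [hstep]
      refine ⟨hcI.maps j hj, ?_⟩
      have hja : j ≠ a := fun h => hj.2 (by simp [h])
      have hjb : j ≠ b := fun h => hj.2 (by simp [h])
      have hxA : c3 a b j ∈ altOn A := c3_mem A a b j ha.1 hb.1 hj.1.1 hab hjb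
      have hxB : c3 a b j ∈ altOn B := c3_mem B a b j ha.2 hb.2 hj.1.2 hab hjb
      have hc := Cyc_conj hcI hab j hja hjb
      have hc' : c3 a b (cI j) = (cI * c3 a b j * cI⁻¹) ^ (εI : ℤ) := by
        rw [hc, zpow_unit_unit]
      rw [hc', ext1_zpow θA (mul_mem (mul_mem hcIA hxA) (inv_mem hcIA)),
        ext1_zpow θB (mul_mem (mul_mem hcIB hxB) (inv_mem hcIB)),
        ext1_mul θA (mul_mem hcIA hxA) (inv_mem hcIA), ext1_mul θA hcIA hxA, ext1_inv θA hcIA,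
        ext1_mul θB (mul_mem hcIB hxB) (inv_mem hcIB), ext1_mul θB hcIB hxB, ext1_inv θB hcIB,
        E1, ih]
  intro i hi
  obtain ⟨k, hk⟩ := hcI.trans i1 hi1 i hi
  rw [← hk]
  exact (key k).2

end Cfsg.Agent.Lib.Helper60BPGlueid
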