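import Cfsg.Agent.Lib.Helper43BPDefs
import Cfsg.Agent.Lib.Helper72BPC3
import Cfsg.Agent.Lib.Helper72BPCycbasic
import Cfsg.Agent.Lib.Helper66BPCyc
import Cfsg.Agent.Lib.Helper36BPGen
import Cfsg.Agent.Lib.Helper15BPGluecross
import Cfsg.Agent.Lib.Helper17BPGluehom
import Cfsg.Agent.Lib.Helper60BPGlueid

set_option autoImplicit false

/-! Project 43, piece `altglue`: the alternating group on `A ∪ B` is the free product of the
alternating groups on `A` and on `B` modulo six relators. -/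

namespace Cfsg.Agent.Lib.Helper60BPAltglue

open Cfsg.Agent.Lib.Helper43BP
open Cfsg.Agent.Lib.Helper72BPC3 Cfsg.Agent.Lib.Helper72BPCycbasic Cfsg.Agent.Lib.Helper66BPCyc
open Cfsg.Agent.Lib.Helper60BPGlueid

variable {Ω : Type*} [Fintype Ω] [DecidableEq Ω]

theorem ext1_comp {A : Set Ω} {P P' : Type*} [Group P] [Group P'] (θ : ↥(altOn A) →* P)
    (g : P →* P') (σ : Equiv.Perm Ω) : ext1 (g.comp θ) σ = g (ext1 θ σ) := by
  by_cases h : σ ∈ altOn A
  · rw [ext1_apply _ h, ext1_apply _ h]; rfl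
  · unfold ext1
    rw [dif_neg h, dif_neg h, map_one]

theorem ext1_one {A : Set Ω} {P : Type*} [Group P] (θ : ↥(altOn A) →* P) : ext1 θ 1 = 1 := by
  rw [ext1_apply θ (one_mem _)]
  exact map_one θ

/-- the canonical map. -/
noncomputable abbrev ff (A B : Set Ω) : Monoid.Coprod ↥(altOn A) ↥(altOn B) →* ↥(alternatingGroup Ω) :=
  Monoid.Coprod.lift (incl A) (incl B)

noncomputable abbrev jA (A B : Set Ω) (σ : Equiv.Perm Ω) : Monoid.Coprod ↥(altOn A) ↥(altOn B) :=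
  ext1 (Monoid.Coprod.inl : ↥(altOn A) →* Monoid.Coprod ↥(altOn A) ↥(altOn B)) σ

noncomputable abbrev jB (A B : Set Ω) (σ : Equiv.Perm Ω) : Monoid.Coprod ↥(altOn A) ↥(altOn B) :=
  ext1 (Monoid.Coprod.inr : ↥(altOn B) →* Monoid.Coprod ↥(altOn A) ↥(altOn B)) σ

theorem ff_jA (A B : Set Ω) {σ : Equiv.Perm Ω} (h : σ ∈ altOn A) :
    ((ff A B (jA A B σ) : ↥(alternatingGroup Ω)) : Equiv.Perm Ω) = σ := by
  rw [jA, ext1_apply _ h, ff, Monoid.Coprod.lift_apply_inl]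
  rfl

theorem ff_jB (A B : Set Ω) {σ : Equiv.Perm Ω} (h : σ ∈ altOn B) :
    ((ff A B (jB A B σ) : ↥(alternatingGroup Ω)) : Equiv.Perm Ω) = σ := by
  rw [jB, ext1_apply _ h, ff, Monoid.Coprod.lift_apply_inr]
  rfl

/-- equalities in a quotient. -/
theorem mk_eq_of_mem {G : Type*} [Group G] (N : Subgroup G) [N.Normal] {x y : G}
    (h : x * y⁻¹ ∈ N) : QuotientGroup.mk' N x = QuotientGroup.mk' N y := by
  have : QuotientGroup.mk' N (x * y⁻¹) = 1 := (QuotientGroup.eq_one_iff _).2 h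
  rw [map_mul, map_inv, mul_inv_eq_one] at this
  exact this

theorem exists_T1 (A B : Set Ω) (a b : Ω) (hab : a ≠ b) (ha : a ∈ A ∩ B) (hb : b ∈ A ∩ B) :
    ∃ T : Finset (Monoid.Coprod ↥(altOn A) ↥(altOn B)), T.card ≤ 2 ∧ (∀ t ∈ T, ff A B t = 1) ∧
      ∀ (N : Subgroup (Monoid.Coprod ↥(altOn A) ↥(altOn B))) [N.Normal], (∀ t ∈ T, t ∈ N) →
        ∀ i ∈ (A ∩ B) \ {a, b},
          ext1 ((QuotientGroup.mk' N).comp Monoid.Coprod.inl) (c3 a b i) =
            ext1 ((QuotientGroup.mk' N).comp Monoid.Coprod.inr) (c3 a b i) := by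
  classical
  by_cases hI : ((A ∩ B) \ {a, b}).Nonempty
  · obtain ⟨i1, hi1⟩ := hI
    obtain ⟨cI, εI, hcI⟩ := exists_cyc a b hab ((A ∩ B) \ {a, b}) (by simp) (by simp)
    have hcIA : cI ∈ altOn A := Cyc_mem hcI A (fun x hx => hx.1.1) ha.1 hb.1
    have hcIB : cI ∈ altOn B := Cyc_mem hcI B (fun x hx => hx.1.2) ha.2 hb.2
    have hi1b : i1 ≠ b := fun h => hi1.2 (by simp [h])
    have hxA : c3 a b i1 ∈ altOn A := c3_mem A a b i1 ha.1 hb.1 hi1.1.1 hab hi1b
    have hxB : c3 a b i1 ∈ altOn B := c3_mem B a b i1 ha.2 hb.2 hi1.1.2 hab hi1b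
    refine ⟨{jA A B cI * (jB A B cI)⁻¹, jA A B (c3 a b i1) * (jB A B (c3 a b i1))⁻¹},
      Finset.card_le_two, ?_, ?_⟩
    · intro t ht
      rw [Finset.mem_insert, Finset.mem_singleton] at ht
      apply Subtype.ext
      rcases ht with rfl | rfl
      · rw [map_mul, map_inv, Subgroup.coe_mul, Subgroup.coe_inv, ff_jA A B hcIA, ff_jB A B hcIB]
        simp
      · rw [map_mul, map_inv, Subgroup.coe_mul, Subgroup.coe_inv, ff_jA A B hxA, ff_jB A B hxB]
        simp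
    · intro N _ hTN
      apply glue_id A B a b hab ha hb _ _ cI εI hcI i1 hi1
      · rw [ext1_comp, ext1_comp]
        exact mk_eq_of_mem N (hTN _ (by simp))
      · rw [ext1_comp, ext1_comp]
        exact mk_eq_of_mem N (hTN _ (by simp))
  · refine ⟨∅, by simp, by simp, ?_⟩
    intro N _ _ i hi
    exact absurd ⟨i, hi⟩ hI

theorem exists_T2 (A B : Set Ω) (a b : Ω) (hab : a ≠ b) (ha : a ∈ A ∩ B) (hb : b ∈ A ∩ B) :
    ∃ T : Finset (Monoid.Coprod ↥(altOn A) ↥(altOn B)), T.card ≤ 4 ∧ (∀ t ∈ T, ff A B t = 1) ∧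
      ∀ (N : Subgroup (Monoid.Coprod ↥(altOn A) ↥(altOn B))) [N.Normal], (∀ t ∈ T, t ∈ N) →
        ∀ i ∈ A \ B, ∀ j ∈ B \ A,
          (ext1 ((QuotientGroup.mk' N).comp Monoid.Coprod.inl) (c3 a b i) *
            ext1 ((QuotientGroup.mk' N).comp Monoid.Coprod.inr) (c3 a b j)) ^ 2 = 1 := by
  classical
  by_cases hI : (A \ B).Nonempty ∧ (B \ A).Nonempty
  · obtain ⟨⟨i0, hi0⟩, ⟨j0, hj0⟩⟩ := hI
    obtain ⟨cA, εA, hcA⟩ := exists_cyc a b hab (A \ B) (fun h => h.2 ha.2) (fun h => h.2 hb.2)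
    obtain ⟨cB, εB, hcB⟩ := exists_cyc a b hab (B \ A) (fun h => h.2 ha.1) (fun h => h.2 hb.1)
    have hcAA : cA ∈ altOn A := Cyc_mem hcA A (fun x hx => hx.1) ha.1 hb.1
    have hcBB : cB ∈ altOn B := Cyc_mem hcB B (fun x hx => hx.1) ha.2 hb.2
    have hi0a : i0 ≠ a := fun h => hi0.2 (h ▸ ha.2)
    have hi0b : i0 ≠ b := fun h => hi0.2 (h ▸ hb.2)
    have hj0a : j0 ≠ a := fun h => hj0.2 (h ▸ ha.1)
    have hj0b : j0 ≠ b := fun h => hj0.2 (h ▸ hb.1)
    have hij : i0 ≠ j0 := fun h => hi0.2 (h ▸ hj0.1)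
    have hxA : c3 a b i0 ∈ altOn A := c3_mem A a b i0 ha.1 hb.1 hi0.1 hab hi0b
    have hxB : c3 a b j0 ∈ altOn B := c3_mem B a b j0 ha.2 hb.2 hj0.1 hab hj0b
    have hcomm : Commute cA cB := Cyc_comm hab hcA hcB (fun h => h.2 ha.2) (fun h => h.2 hb.2)
      (fun h => h.2 ha.1) (fun h => h.2 hb.1)
      (Set.disjoint_left.2 (fun x hx hx' => hx.2 hx'.1))
    have h4 : cA * c3 a b j0 * cA⁻¹ = (c3 a b j0) ^ (εA : ℤ) := by
      rw [Cyc_conj hcA hab j0 hj0a hj0b, hcA.fix j0 (fun h => hj0.2 h.1) hj0a hj0b]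
    have h5 : cB * c3 a b i0 * cB⁻¹ = (c3 a b i0) ^ (εB : ℤ) := by
      rw [Cyc_conj hcB hab i0 hi0a hi0b, hcB.fix i0 (fun h => hi0.2 h.1) hi0a hi0b]
    have h6 := c3_mul_sq a b i0 j0 hab hi0a hi0b hj0a hj0b hij
    refine ⟨{jA A B cA * jB A B cB * (jB A B cB * jA A B cA)⁻¹,
      jA A B cA * jB A B (c3 a b j0) * (jA A B cA)⁻¹ * ((jB A B (c3 a b j0)) ^ (εA : ℤ))⁻¹,
      jB A B cB * jA A B (c3 a b i0) * (jB A B cB)⁻¹ * ((jA A B (c3 a b i0)) ^ (εB : ℤ))⁻¹,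
      (jA A B (c3 a b i0) * jB A B (c3 a b j0)) ^ 2 * (1 : Monoid.Coprod ↥(altOn A) ↥(altOn B))⁻¹},
      Finset.card_le_four, ?_, ?_⟩
    · intro t ht
      simp only [Finset.mem_insert, Finset.mem_singleton] at ht
      apply Subtype.ext
      rcases ht with rfl | rfl | rfl | rfl
      · simp only [map_mul, map_inv, Subgroup.coe_mul, Subgroup.coe_inv, ff_jA A B hcAA,
          ff_jB A B hcBB, Subgroup.coe_one]
        rw [hcomm.eq, mul_inv_cancel]
      · simp only [map_mul, map_inv, map_zpow, Subgroup.coe_mul, Subgroup.coe_inv,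
          Subgroup.coe_zpow, ff_jA A B hcAA, ff_jB A B hxB, Subgroup.coe_one]
        rw [h4, mul_inv_cancel]
      · simp only [map_mul, map_inv, map_zpow, Subgroup.coe_mul, Subgroup.coe_inv,
          Subgroup.coe_zpow, ff_jA A B hxA, ff_jB A B hcBB, Subgroup.coe_one]
        rw [h5, mul_inv_cancel]
      · simp only [map_mul, map_inv, map_pow, map_one, Subgroup.coe_mul, Subgroup.coe_inv,
          Subgroup.coe_pow, ff_jA A B hxA, ff_jB A B hxB, Subgroup.coe_one]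
        rw [h6]; simp
    · intro N _ hTN
      refine Cfsg.Agent.Lib.Helper15BPGluecross.glue_cross A B a b hab ha hb _ _ cA εA hcA cB εB hcB i0 j0 hi0 hj0
        ?_ ?_ ?_ ?_ c3_mem Cyc_conj Cyc_mem
      · simp only [ext1_comp]
        have := mk_eq_of_mem N (hTN _ (show jA A B cA * jB A B cB * (jB A B cB * jA A B cA)⁻¹ ∈ _ by simp))
        rw [map_mul, map_mul] at this
        exact this
      · simp only [ext1_comp]
        have := mk_eq_of_mem N (hTN _ (show jA A B cA * jB A B (c3 a b j0) * (jA A B cA)⁻¹ *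
          ((jB A B (c3 a b j0)) ^ (εA : ℤ))⁻¹ ∈ _ by simp))
        rw [map_mul, map_mul, map_inv, map_zpow] at this
        exact this
      · simp only [ext1_comp]
        have := mk_eq_of_mem N (hTN _ (show jB A B cB * jA A B (c3 a b i0) * (jB A B cB)⁻¹ *
          ((jA A B (c3 a b i0)) ^ (εB : ℤ))⁻¹ ∈ _ by simp))
        rw [map_mul, map_mul, map_inv, map_zpow] at this
        exact this
      · simp only [ext1_comp]
        have := mk_eq_of_mem N (hTN _ (show (jA A B (c3 a b i0) * jB A B (c3 a b j0)) ^ 2 *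
          (1 : Monoid.Coprod ↥(altOn A) ↥(altOn B))⁻¹ ∈ _ by simp))
        rw [map_pow, map_mul, map_one] at this
        exact this
  · refine ⟨∅, by simp, by simp, ?_⟩
    intro N _ _ i hi j hj
    exact absurd ⟨⟨i, hi⟩, ⟨j, hj⟩⟩ hI

theorem ff_surjective (A B : Set Ω) (hAB : A ∪ B = Set.univ) (a b : Ω) (hab : a ≠ b)
    (ha : a ∈ A ∩ B) (hb : b ∈ A ∩ B) : Function.Surjective (ff A B) := by
  intro g
  have hcl := Cfsg.Agent.Lib.Helper36BPGen.closure_c3 (Set.univ : Set Ω) a b hab (Set.mem_univ _) (Set.mem_univ _)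
  have hg : (g : Equiv.Perm Ω) ∈ altOn (Set.univ : Set Ω) := ⟨g.2, fun x hx => absurd (Set.mem_univ x) hx⟩
  rw [← hcl] at hg
  have hle : Subgroup.closure {g : Equiv.Perm Ω | ∃ i ∈ (Set.univ : Set Ω), i ≠ a ∧ i ≠ b ∧ g = c3 a b i} ≤
      (ff A B).range.map (alternatingGroup Ω).subtype := by
    rw [Subgroup.closure_le]
    rintro _ ⟨i, -, hia, hib, rfl⟩
    have hi : i ∈ A ∪ B := hAB ▸ Set.mem_univ i
    rcases hi with hi | hi
    · have hx : c3 a b i ∈ altOn A := c3_mem A a b i ha.1 hb.1 hi hab hib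
      exact ⟨ff A B (jA A B (c3 a b i)), ⟨_, rfl⟩, ff_jA A B hx⟩
    · have hx : c3 a b i ∈ altOn B := c3_mem B a b i ha.2 hb.2 hi hab hib
      exact ⟨ff A B (jB A B (c3 a b i)), ⟨_, rfl⟩, ff_jB A B hx⟩
  obtain ⟨y, ⟨x, rfl⟩, hy⟩ := hle hg
  exact ⟨x, Subtype.ext hy⟩

theorem alt_glue (A B : Set Ω) (hAB : A ∪ B = Set.univ) (a b : Ω) (hab : a ≠ b) (ha : a ∈ A ∩ B)
    (hb : b ∈ A ∩ B) :
    ∃ T : Finset (Monoid.Coprod ↥(altOn A) ↥(altOn B)), T.card ≤ 6 ∧
      Function.Surjective (Monoid.Coprod.lift (incl A) (incl B)) ∧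
      (Monoid.Coprod.lift (incl A) (incl B)).ker = Subgroup.normalClosure (↑T : Set _) := by
  classical
  obtain ⟨T1, hc1, hk1, hT1⟩ := exists_T1 A B a b hab ha hb
  obtain ⟨T2, hc2, hk2, hT2⟩ := exists_T2 A B a b hab ha hb
  refine ⟨T1 ∪ T2, (Finset.card_union_le _ _).trans (by omega),
    ff_surjective A B hAB a b hab ha hb, ?_⟩
  set N := Subgroup.normalClosure (↑(T1 ∪ T2) : Set (Monoid.Coprod ↥(altOn A) ↥(altOn B))) with hN
  have hsub : (↑(T1 ∪ T2) : Set (Monoid.Coprod ↥(altOn A) ↥(altOn B))) ⊆ N :=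
    Subgroup.subset_normalClosure
  have hNle : N ≤ (ff A B).ker := by
    apply Subgroup.normalClosure_le_normal
    intro t ht
    rw [Finset.mem_coe, Finset.mem_union] at ht
    rcases ht with ht | ht
    · exact hk1 t ht
    · exact hk2 t ht
  apply le_antisymm _ hNle
  obtain ⟨φ, hφA, hφB⟩ := Cfsg.Agent.Lib.Helper17BPGluehom.glue_hom A B hAB a b hab ha hb
    ((QuotientGroup.mk' N).comp Monoid.Coprod.inl) ((QuotientGroup.mk' N).comp Monoid.Coprod.inr)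
    (hT1 N (fun t ht => hsub (by
      rw [Finset.mem_coe]; exact Finset.mem_union_left _ ht)))
    (hT2 N (fun t ht => hsub (by
      rw [Finset.mem_coe]; exact Finset.mem_union_right _ ht)))
  have hcomp : φ.comp (ff A B) = QuotientGroup.mk' N := by
    apply Monoid.Coprod.hom_ext
    · ext g
      simp only [MonoidHom.comp_apply, Monoid.Coprod.lift_apply_inl]
      exact hφA g
    · ext g
      simp only [MonoidHom.comp_apply, Monoid.Coprod.lift_apply_inr]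
      exact hφB g
  intro x hx
  have h1 : QuotientGroup.mk' N x = 1 := by
    rw [← hcomp, MonoidHom.comp_apply, MonoidHom.mem_ker.1 hx, map_one]
  exact (QuotientGroup.eq_one_iff x).1 h1

end Cfsg.Agent.Lib.Helper60BPAltglue
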