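import Cfsg.Agent.Lib.Helper43BPDefs
import Cfsg.Agent.Lib.Helper72BPQuot
import Cfsg.Agent.Lib.Helper1BPCoprod
import Cfsg.Agent.Lib.Helper1BPTietze
import Cfsg.Agent.Lib.Helper15BPBpalt
import Cfsg.Agent.Lib.Helper60BPAltglue

set_option autoImplicit false

/-! Hub of project 43, wave 1. -/

namespace Cfsg.Agent.Lib.Helper43BPHubA

open Cfsg.Agent.Lib.Helper43BP

theorem BP_quot {G : Type*} [Group G] {r : ℕ} (h : BP G r) (T : Finset G) :
    BP (G ⧸ Subgroup.normalClosure (↑T : Set G)) (r + T.card) :=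
  Cfsg.Agent.Lib.Helper72BPQuot.BP_quot h T

theorem BP_coprod {A L : Type*} [Group A] [Group L] {r s : ℕ} (hA : BP A r) (hL : BP L s) :
    BP (Monoid.Coprod A L) (r + s) :=
  Cfsg.Agent.Lib.Helper1BPCoprod.BP_coprod hA hL

theorem BP_two_gen {G : Type*} [Group G] {r : ℕ} (h : BP G r) (a b : G)
    (hab : Subgroup.closure ({a, b} : Set G) = ⊤) :
    ∃ rels : Finset (FreeGroup (Fin 2)), rels.card ≤ r + 2 ∧
      Nonempty (PresentedGroup (↑rels : Set (FreeGroup (Fin 2))) ≃* G) :=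
  Cfsg.Agent.Lib.Helper1BPTietze.BP_two_gen h a b hab

theorem BP_congr {G G' : Type*} [Group G] [Group G'] {r : ℕ} (e : G ≃* G') (h : BP G r) :
    BP G' r := by
  obtain ⟨α, rels, h1, ⟨f⟩⟩ := h
  exact ⟨α, rels, h1, ⟨f.trans e⟩⟩

theorem BP_mono {G : Type*} [Group G] {r s : ℕ} (h : BP G r) (hrs : r ≤ s) : BP G s := by
  obtain ⟨α, rels, h1, hf⟩ := h
  exact ⟨α, rels, h1.trans hrs, hf⟩

theorem BP_glue {A L G : Type*} [Group A] [Group L] [Group G] {r s t : ℕ} (hA : BP A r)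
    (hL : BP L s) (T : Finset (Monoid.Coprod A L)) (hT : T.card ≤ t) (f : Monoid.Coprod A L →* G)
    (hf : Function.Surjective f) (hker : f.ker = Subgroup.normalClosure (↑T : Set _)) :
    BP G (r + s + t) := by
  have h1 := BP_quot (BP_coprod hA hL) T
  have e1 : (Monoid.Coprod A L ⧸ Subgroup.normalClosure (↑T : Set (Monoid.Coprod A L))) ≃*
      (Monoid.Coprod A L ⧸ f.ker) := QuotientGroup.quotientMulEquivOfEq hker.symm
  exact BP_mono (BP_congr (e1.trans (QuotientGroup.quotientKerEquivOfSurjective f hf)) h1)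
    (by omega)

theorem BP_alt (n : ℕ) (hn : 4 ≤ n) : BP ↥(alternatingGroup (Fin n)) 20 :=
  Cfsg.Agent.Lib.Helper15BPBpalt.BP_alt' n hn
    (fun A B h a b hab ha hb => Cfsg.Agent.Lib.Helper60BPAltglue.alt_glue A B h a b hab ha hb)

end Cfsg.Agent.Lib.Helper43BPHubA
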