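import Cfsg.Agent.Lib.Helper43P3A

set_option autoImplicit false

namespace Cfsg.Agent.Lib.Helper43P3

open Cfsg.Agent.Lib.Helper43Pres

variable {F : Type*} [Field F] {Γ : Type*} [Group Γ]

/-- `w` conjugates the family `x` onto the family `x'` up to a nonzero scalar. -/
def Mv (w : Γ) (x x' : F → Γ) : Prop := ∃ z : F, z ≠ 0 ∧ Maps w x x' z

theorem Maps.mv {w : Γ} {x x' : F → Γ} {z : F} (h : Maps w x x' z) (hz : z ≠ 0) : Mv w x x' :=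
  ⟨z, hz, h⟩

namespace Mv

variable {w w' : Γ} {x x' x'' : F → Γ}

theorem comp (h' : Mv w' x' x'') (h : Mv w x x') : Mv (w' * w) x x'' := by
  obtain ⟨z', hz', h'⟩ := h'
  obtain ⟨z, hz, h⟩ := h
  exact ⟨z' * z, mul_ne_zero hz' hz, h'.comp h⟩

theorem inv (h : Mv w x x') : Mv w⁻¹ x' x := by
  obtain ⟨z, hz, h⟩ := h
  exact ⟨z⁻¹, inv_ne_zero hz, h.inv hz⟩

theorem pow (h : Mv w x x) (n : ℕ) : Mv (w ^ n) x x := by
  obtain ⟨z, hz, h⟩ := h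
  exact ⟨z ^ n, pow_ne_zero _ hz, h.pow n⟩

theorem congr (h : Mv w x x') (e : w = w') : Mv w' x x' := by
  subst e; exact h

theorem ex (h : Mv w x x') (a : F) : ∃ a', w * x a * w⁻¹ = x' a' := by
  obtain ⟨z, _, h⟩ := h
  exact ⟨_, h a⟩

end Mv

namespace S3

variable {φ : F → Γ} {g t c : Γ} {ζ : F} {e : ℕ}

local notation "g1" => (c * g * c⁻¹)
local notation "g2" => (c * (c * g * c⁻¹) * c⁻¹)

/-! additivity of the root maps -/
theorem add23 (S : S3 φ g t c ζ e) (a b : F) : x23 φ c (a + b) = x23 φ c a * x23 φ c b :=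
  add_conj S.add c a b
theorem add21 (S : S3 φ g t c ζ e) (a b : F) : x21 φ t (a + b) = x21 φ t a * x21 φ t b := by
  unfold x21; rw [neg_add]; exact add_conj S.add t _ _
theorem add13 (S : S3 φ g t c ζ e) (a b : F) : x13 φ t c (a + b) = x13 φ t c a * x13 φ t c b := by
  have h := add_conj (x := fun a => c * x21 φ t a * c⁻¹) (add_conj S.add21 c) c a b
  exact h

/-! torus on `x21` -/
theorem g0_21 (S : S3 φ g t c ζ e) : Maps g (x21 φ t) (x21 φ t) ζ⁻¹ := by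
  have h := (S.g1_12.inv S.ζ_ne).transport S.t_12 (neg_ne_zero.mpr one_ne_zero)
  refine h.congr ?_ rfl
  have : t * g1⁻¹ * t⁻¹ = (t * g1 * t⁻¹)⁻¹ := by group
  rw [this, S.t_g1, inv_inv]
theorem g1_21 (S : S3 φ g t c ζ e) : Maps g1 (x21 φ t) (x21 φ t) ζ⁻¹ := by
  have h := (S.g0_12.inv S.ζ_ne).transport S.t_12 (neg_ne_zero.mpr one_ne_zero)
  refine h.congr ?_ rfl
  have : t * g⁻¹ * t⁻¹ = (t * g * t⁻¹)⁻¹ := by group
  rw [this, S.t_g0, inv_inv]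
theorem g2_21 (S : S3 φ g t c ζ e) : Maps g2 (x21 φ t) (x21 φ t) (ζ ^ 2) := by
  have h := S.hu.transport S.t_12 (neg_ne_zero.mpr one_ne_zero)
  refine h.congr ?_ rfl
  have : t * g2⁻¹ * t⁻¹ = (t * g2 * t⁻¹)⁻¹ := by group
  rw [this, S.tg2, inv_inv]

/-! torus on `x23` -/
theorem g1_23 (S : S3 φ g t c ζ e) : Maps g1 (x23 φ c) (x23 φ c) ζ :=
  S.g0_12.transport S.c_12 one_ne_zero
theorem g2_23 (S : S3 φ g t c ζ e) : Maps g2 (x23 φ c) (x23 φ c) ζ :=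
  S.g1_12.transport S.c_12 one_ne_zero
theorem g0_23 (S : S3 φ g t c ζ e) : Maps g (x23 φ c) (x23 φ c) (ζ ^ 2)⁻¹ :=
  (S.g2_12.transport S.c_12 one_ne_zero).congr S.cg2 rfl

/-! torus on `x31` -/
theorem g2_31 (S : S3 φ g t c ζ e) : Maps g2 (x31 φ c) (x31 φ c) ζ :=
  S.g1_23.transport S.c_23 one_ne_zero
theorem g0_31 (S : S3 φ g t c ζ e) : Maps g (x31 φ c) (x31 φ c) ζ :=
  (S.g2_23.transport S.c_23 one_ne_zero).congr S.cg2 rfl
theorem g1_31 (S : S3 φ g t c ζ e) : Maps g1 (x31 φ c) (x31 φ c) (ζ ^ 2)⁻¹ :=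
  S.g0_23.transport S.c_23 one_ne_zero

/-! torus on `x32` -/
theorem g1_32 (S : S3 φ g t c ζ e) : Maps g1 (x32 φ t c) (x32 φ t c) ζ⁻¹ :=
  S.g0_21.transport S.c_21 one_ne_zero
theorem g2_32 (S : S3 φ g t c ζ e) : Maps g2 (x32 φ t c) (x32 φ t c) ζ⁻¹ :=
  S.g1_21.transport S.c_21 one_ne_zero
theorem g0_32 (S : S3 φ g t c ζ e) : Maps g (x32 φ t c) (x32 φ t c) (ζ ^ 2) :=
  (S.g2_21.transport S.c_21 one_ne_zero).congr S.cg2 rfl

/-! torus on `x13` -/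
theorem g2_13 (S : S3 φ g t c ζ e) : Maps g2 (x13 φ t c) (x13 φ t c) ζ⁻¹ :=
  S.g1_32.transport S.c_32 one_ne_zero
theorem g0_13 (S : S3 φ g t c ζ e) : Maps g (x13 φ t c) (x13 φ t c) ζ⁻¹ :=
  (S.g2_32.transport S.c_32 one_ne_zero).congr S.cg2 rfl
theorem g1_13 (S : S3 φ g t c ζ e) : Maps g1 (x13 φ t c) (x13 φ t c) (ζ ^ 2) :=
  S.g0_32.transport S.c_32 one_ne_zero

/-! `t` on the roots -/
theorem t_eq (S : S3 φ g t c ζ e) : t = g2 ^ e * (c⁻¹ * (t * c⁻¹)) := by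
  have := S.tc
  calc t = (t * c * t⁻¹) * (t * c⁻¹) := by group
    _ = _ := by rw [this]; group

theorem ne1 : (-1 : F) ≠ 0 := neg_ne_zero.mpr one_ne_zero

theorem tt_mv {x : F → Γ} (S : S3 φ g t c ζ e) (h : Mv g2 x x) : Mv (t * t) x x :=
  (h.pow e).congr S.tt.symm

theorem z2 (S : S3 φ g t c ζ e) : (ζ ^ 2)⁻¹ ≠ 0 := inv_ne_zero (pow_ne_zero _ S.ζ_ne)

theorem t_21 (S : S3 φ g t c ζ e) : Mv t (x21 φ t) φ :=
  ((S.tt_mv (S.g2_12.mv S.z2)).comp (S.t_12.mv ne1).inv).congr (by group)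

theorem t_23 (S : S3 φ g t c ζ e) : Mv t (x23 φ c) (x13 φ t c) :=
  (((S.g2_13.mv (inv_ne_zero S.ζ_ne)).pow e).comp ((S.c_13.mv one_ne_zero).inv.comp
    ((S.t_12.mv ne1).comp (S.c_12.mv one_ne_zero).inv))).congr S.t_eq.symm

theorem t_32 (S : S3 φ g t c ζ e) : Mv t (x32 φ t c) (x31 φ c) :=
  (((S.g2_31.mv S.ζ_ne).pow e).comp ((S.c_31.mv one_ne_zero).inv.comp
    (S.t_21.comp (S.c_21.mv one_ne_zero).inv))).congr S.t_eq.symm

theorem tinv_13 (S : S3 φ g t c ζ e) : Mv t⁻¹ (x13 φ t c) (x23 φ c) := S.t_23.inv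

theorem tinv_23 (S : S3 φ g t c ζ e) : Mv t⁻¹ (x23 φ c) (x13 φ t c) :=
  ((S.tt_mv (S.g2_13.mv (inv_ne_zero S.ζ_ne))).inv.comp S.t_23).congr (by group)

theorem tinv_31 (S : S3 φ g t c ζ e) : Mv t⁻¹ (x31 φ c) (x32 φ t c) := S.t_32.inv

theorem tinv_32 (S : S3 φ g t c ζ e) : Mv t⁻¹ (x32 φ t c) (x31 φ c) :=
  ((S.tt_mv (S.g2_31.mv S.ζ_ne)).inv.comp S.t_32).congr (by group)

/-- `t₂⁻¹` maps `x12` to `x13` -/
theorem t2inv_12 (S : S3 φ g t c ζ e) : Mv (c * t * c⁻¹)⁻¹ φ (x13 φ t c) :=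
  ((S.c_32.mv one_ne_zero).comp (S.tinv_31.comp (S.c_31.mv one_ne_zero).inv)).congr (by group)

theorem t2inv_13 (S : S3 φ g t c ζ e) : Mv (c * t * c⁻¹)⁻¹ (x13 φ t c) φ :=
  ((S.c_31.mv one_ne_zero).comp (S.tinv_32.comp (S.c_32.mv one_ne_zero).inv)).congr (by group)

/-! ### the commutator relation -/

/-- the commutator relation with parameters `a`, `b` -/
def CR (φ : F → Γ) (t c : Γ) (a b : F) : Prop :=
  φ a * x23 φ c b * (φ a)⁻¹ * (x23 φ c b)⁻¹ = x13 φ t c (a * b)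

theorem CR_conj {k : Γ} {z1 z2 : F} (h1 : Maps k φ φ z1) (h2 : Maps k (x23 φ c) (x23 φ c) z2)
    (h3 : Maps k (x13 φ t c) (x13 φ t c) (z1 * z2)) {a b : F} (H : CR φ t c a b) :
    CR φ t c (z1 * a) (z2 * b) := by
  unfold CR at *
  have h0 := congrArg (fun x => k * x * k⁻¹) H
  have e1 : k * (φ a * x23 φ c b * (φ a)⁻¹ * (x23 φ c b)⁻¹) * k⁻¹
      = (k * φ a * k⁻¹) * (k * x23 φ c b * k⁻¹) * (k * φ a * k⁻¹)⁻¹ * (k * x23 φ c b * k⁻¹)⁻¹ := by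
    group
  have h0' : k * (φ a * x23 φ c b * (φ a)⁻¹ * (x23 φ c b)⁻¹) * k⁻¹ = k * x13 φ t c (a * b) * k⁻¹ :=
    h0
  rw [e1, h1, h2, h3] at h0'
  rw [h0']; congr 1; ring

theorem CR_all (S : S3 φ g t c ζ e) (hgen : ∀ b : F, b ≠ 0 → ∃ j : ℕ, ζ ^ j = b) (a b : F) :
    CR φ t c a b := by
  have hz := S.ζ_ne
  have x23_0 : x23 φ c 0 = 1 := phi_zero S.add23
  have x13_0 : x13 φ t c 0 = 1 := phi_zero S.add13
  by_cases ha : a = 0
  · subst ha; unfold CR; rw [phi_zero S.add, zero_mul, x13_0]; group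
  by_cases hb : b = 0
  · subst hb; unfold CR; rw [x23_0, mul_zero, x13_0]; group
  obtain ⟨A, rfl⟩ := hgen a ha
  obtain ⟨m, hm⟩ := hgen (b / ζ ^ A) (div_ne_zero hb ha)
  have hb' : b = ζ ^ A * ζ ^ m := by rw [hm]; field_simp
  -- the element acting as (1, ζ³, ζ³)
  have k1 : Maps (g⁻¹ * g1) φ φ 1 :=
    ((S.g0_12.inv hz).comp S.g1_12).congr rfl (by field_simp)
  have k2 : Maps (g⁻¹ * g1) (x23 φ c) (x23 φ c) (ζ ^ 3) :=
    ((S.g0_23.inv S.z2).comp S.g1_23).congr rfl (by field_simp)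
  have k3 : Maps (g⁻¹ * g1) (x13 φ t c) (x13 φ t c) (1 * ζ ^ 3) :=
    ((S.g0_13.inv (inv_ne_zero hz)).comp S.g1_13).congr rfl (by field_simp)
  have step1 : ∀ (i r : ℕ), i < 3 → CR φ t c 1 (ζ ^ (i + 3 * r)) := by
    intro i r hi
    induction r with
    | zero =>
      unfold CR; rw [one_mul]; simpa using S.com i hi
    | succ r ih =>
      have := CR_conj k1 k2 k3 ih
      rw [one_mul] at this
      have e1 : ζ ^ (i + 3 * (r + 1)) = ζ ^ 3 * ζ ^ (i + 3 * r) := by ring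
      rw [e1]; exact this
  have step2 : ∀ (n : ℕ) (B : ℕ), CR φ t c 1 (ζ ^ B) → CR φ t c (ζ ^ n) (ζ ^ n * ζ ^ B) := by
    intro n B h
    have l1 := S.g1_12.pow n
    have l2 := S.g1_23.pow n
    have l3 : Maps (g1 ^ n) (x13 φ t c) (x13 φ t c) (ζ ^ n * ζ ^ n) :=
      (S.g1_13.pow n).congr rfl (by ring)
    have := CR_conj l1 l2 l3 h
    rwa [mul_one] at this
  have hm3 : m = m % 3 + 3 * (m / 3) := (Nat.mod_add_div m 3).symm
  rw [hb']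
  apply step2
  rw [hm3]
  exact step1 _ _ (Nat.mod_lt _ (by norm_num))

end S3

end Cfsg.Agent.Lib.Helper43P3
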