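import Cfsg.Agent.Lib.Helper43P3B
import Cfsg.Agent.Lib.Helper43P3C

set_option autoImplicit false

namespace Cfsg.Agent.Lib.Helper43P3

open Cfsg.Agent.Lib.Helper43Pres

variable {F : Type*} [Field F] {Γ : Type*} [Group Γ]

/-- the unipotent subgroup -/
def UU (φ : F → Γ) (t c : Γ) : Subgroup Γ :=
  Subgroup.closure (Set.range φ ∪ Set.range (x13 φ t c) ∪ Set.range (x23 φ c))

/-- the torus -/
def HH (g c : Γ) : Subgroup Γ := Subgroup.closure {g, c * g * c⁻¹}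

/-- Weyl representatives -/
def WW (t c : Γ) : Set Γ := {w | ∃ i : ℕ, w = c ^ i ∨ w = c ^ i * t}

theorem conj_mem_closure {S : Set Γ} {K : Subgroup Γ} {k : Γ} (h : ∀ s ∈ S, k * s * k⁻¹ ∈ K)
    {y : Γ} (hy : y ∈ Subgroup.closure S) : k * y * k⁻¹ ∈ K := by
  induction hy using Subgroup.closure_induction with
  | mem x hx => exact h x hx
  | one => simp
  | mul x y _ _ ihx ihy =>
    have : k * (x * y) * k⁻¹ = (k * x * k⁻¹) * (k * y * k⁻¹) := by group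
    rw [this]; exact K.mul_mem ihx ihy
  | inv x _ ih =>
    have : k * x⁻¹ * k⁻¹ = (k * x * k⁻¹)⁻¹ := by group
    rw [this]; exact K.inv_mem ih

namespace S3

variable {φ : F → Γ} {g t c : Γ} {ζ : F} {e : ℕ}

local notation "g1" => (c * g * c⁻¹)
local notation "g2" => (c * (c * g * c⁻¹) * c⁻¹)

theorem mem12 (a : F) : φ a ∈ UU φ t c :=
  Subgroup.subset_closure (Or.inl (Or.inl ⟨a, rfl⟩))
theorem mem13 (a : F) : x13 φ t c a ∈ UU φ t c :=
  Subgroup.subset_closure (Or.inl (Or.inr ⟨a, rfl⟩))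
theorem mem23 (a : F) : x23 φ c a ∈ UU φ t c :=
  Subgroup.subset_closure (Or.inr ⟨a, rfl⟩)

theorem g_mem : g ∈ HH g c := Subgroup.subset_closure (by simp)
theorem g1_mem : g1 ∈ HH g c := Subgroup.subset_closure (by simp)
theorem g2_mem (S : S3 φ g t c ζ e) : g2 ∈ HH g c := by
  have h : g2 = (g * g1)⁻¹ := (eq_inv_of_mul_eq_one_right S.gprod)
  rw [h]; exact (HH g c).inv_mem ((HH g c).mul_mem g_mem g1_mem)

/-- diagonal action on all six root maps -/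
structure Tor (φ : F → Γ) (t c : Γ) (k : Γ) : Prop where
  m12 : Mv k φ φ
  m13 : Mv k (x13 φ t c) (x13 φ t c)
  m23 : Mv k (x23 φ c) (x23 φ c)
  m21 : Mv k (x21 φ t) (x21 φ t)

theorem tor_of_mem (S : S3 φ g t c ζ e) {k : Γ} (hk : k ∈ HH g c) : Tor φ t c k := by
  have hz := S.ζ_ne
  induction hk using Subgroup.closure_induction with
  | mem x hx =>
    rcases hx with rfl | rfl
    · exact ⟨S.g0_12.mv hz, S.g0_13.mv (inv_ne_zero hz), S.g0_23.mv S.z2,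
        S.g0_21.mv (inv_ne_zero hz)⟩
    · exact ⟨S.g1_12.mv hz, S.g1_13.mv (pow_ne_zero _ hz), S.g1_23.mv hz,
        S.g1_21.mv (inv_ne_zero hz)⟩
  | one =>
    exact ⟨(Maps.one _).mv one_ne_zero, (Maps.one _).mv one_ne_zero, (Maps.one _).mv one_ne_zero,
      (Maps.one _).mv one_ne_zero⟩
  | mul x y _ _ ihx ihy =>
    exact ⟨ihx.m12.comp ihy.m12, ihx.m13.comp ihy.m13, ihx.m23.comp ihy.m23, ihx.m21.comp ihy.m21⟩
  | inv x _ ih => exact ⟨ih.m12.inv, ih.m13.inv, ih.m23.inv, ih.m21.inv⟩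

theorem HU (S : S3 φ g t c ζ e) : ∀ η ∈ HH g c, ∀ y ∈ UU φ t c, η * y * η⁻¹ ∈ UU φ t c := by
  intro η hη y hy
  have T := S.tor_of_mem hη
  refine conj_mem_closure ?_ hy
  rintro s ((⟨a, rfl⟩ | ⟨a, rfl⟩) | ⟨a, rfl⟩)
  · obtain ⟨a', h⟩ := T.m12.ex a; rw [h]; exact mem12 _
  · obtain ⟨a', h⟩ := T.m13.ex a; rw [h]; exact mem13 _
  · obtain ⟨a', h⟩ := T.m23.ex a; rw [h]; exact mem23 _

theorem cH (S : S3 φ g t c ζ e) {η : Γ} (hη : η ∈ HH g c) : c * η * c⁻¹ ∈ HH g c := by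
  refine conj_mem_closure ?_ hη
  intro s hs
  rcases hs with hs | hs
  · rw [hs]; exact g1_mem
  · rw [Set.mem_singleton_iff] at hs; rw [hs]; exact S.g2_mem

theorem tH (S : S3 φ g t c ζ e) {η : Γ} (hη : η ∈ HH g c) : t * η * t⁻¹ ∈ HH g c := by
  refine conj_mem_closure ?_ hη
  intro s hs
  rcases hs with hs | hs
  · rw [hs, S.t_g0]; exact (HH g c).inv_mem g1_mem
  · rw [Set.mem_singleton_iff] at hs; rw [hs, S.t_g1]; exact (HH g c).inv_mem g_mem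

theorem cpowH (S : S3 φ g t c ζ e) (i : ℕ) {η : Γ} (hη : η ∈ HH g c) :
    c ^ i * η * (c ^ i)⁻¹ ∈ HH g c := by
  induction i with
  | zero => simpa using hη
  | succ i ih =>
    have : c ^ (i + 1) * η * (c ^ (i + 1))⁻¹ = c * (c ^ i * η * (c ^ i)⁻¹) * c⁻¹ := by
      rw [pow_succ']; group
    rw [this]; exact S.cH ih

theorem bn (S : S3 φ g t c ζ e) : BN (UU φ t c) (HH g c) (WW t c) where
  HU := S.HU
  WH := by
    rintro w ⟨i, rfl | rfl⟩ η hη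
    · exact S.cpowH i hη
    · have : c ^ i * t * η * (c ^ i * t)⁻¹ = c ^ i * (t * η * t⁻¹) * (c ^ i)⁻¹ := by group
      rw [this]; exact S.cpowH i (S.tH hη)
  one_mem := ⟨0, Or.inl (by simp)⟩

/-! ### commutation in `U` -/

theorem comm_23_13 (S : S3 φ g t c ζ e) (hCR : ∀ a b, CR φ t c a b) (b d : F) :
    x23 φ c b * x13 φ t c d = x13 φ t c d * x23 φ c b := by
  have h1 := hCR 1 (b + d)
  have h2 := hCR 1 b
  have h3 := hCR 1 d
  unfold CR at h1 h2 h3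
  rw [one_mul] at h1 h2 h3
  rw [S.add23, S.add13, ← h2] at h1
  -- [x, y y'] = [x,y] y [x,y'] y⁻¹
  have e1 : φ 1 * (x23 φ c b * x23 φ c d) * (φ 1)⁻¹ * (x23 φ c b * x23 φ c d)⁻¹
      = (φ 1 * x23 φ c b * (φ 1)⁻¹ * (x23 φ c b)⁻¹) *
        (x23 φ c b * (φ 1 * x23 φ c d * (φ 1)⁻¹ * (x23 φ c d)⁻¹) * (x23 φ c b)⁻¹) := by group
  rw [e1, h3] at h1
  have h4 := mul_left_cancel h1
  calc x23 φ c b * x13 φ t c d = (x23 φ c b * x13 φ t c d * (x23 φ c b)⁻¹) * x23 φ c b := by group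
    _ = _ := by rw [h4]

theorem comm_12_13 (S : S3 φ g t c ζ e) (hCR : ∀ a b, CR φ t c a b) (a d : F) :
    φ a * x13 φ t c d = x13 φ t c d * φ a := by
  have h1 := hCR (a + d) 1
  have h2 := hCR a 1
  have h3 := hCR d 1
  unfold CR at h1 h2 h3
  rw [mul_one] at h1 h2 h3
  rw [S.add, add_comm a d, S.add13, ← h2] at h1
  have e1 : φ a * φ d * x23 φ c 1 * (φ a * φ d)⁻¹ * (x23 φ c 1)⁻¹
      = (φ a * (φ d * x23 φ c 1 * (φ d)⁻¹ * (x23 φ c 1)⁻¹) * (φ a)⁻¹) *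
        (φ a * x23 φ c 1 * (φ a)⁻¹ * (x23 φ c 1)⁻¹) := by group
  rw [e1, h3] at h1
  have h4 := mul_right_cancel h1
  calc φ a * x13 φ t c d = (φ a * x13 φ t c d * (φ a)⁻¹) * φ a := by group
    _ = _ := by rw [h4]

/-- `x23 c * x12 a = x12 a * x13 (-(a c)) * x23 c`. -/
theorem swap (S : S3 φ g t c ζ e) (hCR : ∀ a b, CR φ t c a b) (a b : F) :
    x23 φ c b * φ a = φ a * x13 φ t c (-(a * b)) * x23 φ c b := by
  have h := hCR a b
  unfold CR at h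
  have hc : φ a * (x13 φ t c (a * b))⁻¹ = (x13 φ t c (a * b))⁻¹ * φ a :=
    (Commute.inv_right (show Commute (φ a) (x13 φ t c (a * b)) from S.comm_12_13 hCR a (a * b))).eq
  rw [phi_neg S.add13, hc, ← h]
  group

end S3

end Cfsg.Agent.Lib.Helper43P3
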