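import Cfsg.Agent.Lib.Helper43P3D

set_option autoImplicit false

namespace Cfsg.Agent.Lib.Helper43P3

open Cfsg.Agent.Lib.Helper43Pres

variable {F : Type*} [Field F] {Γ : Type*} [Group Γ]

namespace S3

variable {φ : F → Γ} {g t c : Γ} {ζ : F} {e : ℕ}

local notation "g1" => (c * g * c⁻¹)
local notation "g2" => (c * (c * g * c⁻¹) * c⁻¹)

/-- normal form in `U` -/
def NFU (φ : F → Γ) (t c : Γ) (y : Γ) : Prop := ∃ a b d : F, y = φ a * x13 φ t c b * x23 φ c d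

theorem nf_mul12 (S : S3 φ g t c ζ e) (hCR : ∀ a b, CR φ t c a b) {y : Γ} (hy : NFU φ t c y)
    (a' : F) : NFU φ t c (y * φ a') := by
  obtain ⟨a, b, d, rfl⟩ := hy
  refine ⟨a + a', b + -(a' * d), d, ?_⟩
  rw [S.add, S.add13]
  calc φ a * x13 φ t c b * x23 φ c d * φ a'
      = φ a * x13 φ t c b * (x23 φ c d * φ a') := by group
    _ = φ a * (x13 φ t c b * φ a') * x13 φ t c (-(a' * d)) * x23 φ c d := by
        rw [S.swap hCR]; group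
    _ = _ := by rw [← S.comm_12_13 hCR]; group

theorem nf_mul13 (S : S3 φ g t c ζ e) (hCR : ∀ a b, CR φ t c a b) {y : Γ} (hy : NFU φ t c y)
    (b' : F) : NFU φ t c (y * x13 φ t c b') := by
  obtain ⟨a, b, d, rfl⟩ := hy
  refine ⟨a, b + b', d, ?_⟩
  rw [S.add13]
  calc φ a * x13 φ t c b * x23 φ c d * x13 φ t c b'
      = φ a * x13 φ t c b * (x23 φ c d * x13 φ t c b') := by group
    _ = _ := by rw [S.comm_23_13 hCR]; group

theorem nf_mul23 (S : S3 φ g t c ζ e) {y : Γ} (hy : NFU φ t c y)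
    (d' : F) : NFU φ t c (y * x23 φ c d') := by
  obtain ⟨a, b, d, rfl⟩ := hy
  refine ⟨a, b, d + d', ?_⟩
  rw [S.add23]; group

theorem nf_of_mem (S : S3 φ g t c ζ e) (hCR : ∀ a b, CR φ t c a b) {y : Γ}
    (hy : y ∈ UU φ t c) : NFU φ t c y := by
  induction hy using Subgroup.closure_induction_right with
  | one =>
    exact ⟨0, 0, 0, by rw [phi_zero S.add, phi_zero S.add13, phi_zero S.add23]; simp⟩
  | mul_right x _ y hy ih =>
    rcases hy with (⟨a, rfl⟩ | ⟨a, rfl⟩) | ⟨a, rfl⟩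
    · exact S.nf_mul12 hCR ih a
    · exact S.nf_mul13 hCR ih a
    · exact S.nf_mul23 ih a
  | mul_inv_cancel x _ y hy ih =>
    rcases hy with (⟨a, rfl⟩ | ⟨a, rfl⟩) | ⟨a, rfl⟩
    · rw [← phi_neg S.add]; exact S.nf_mul12 hCR ih _
    · rw [← phi_neg S.add13]; exact S.nf_mul13 hCR ih _
    · rw [← phi_neg S.add23]; exact S.nf_mul23 ih _

/-! ### data for the first simple reflection -/

theorem d1_1 (S : S3 φ g t c ζ e) (hCR : ∀ a b, CR φ t c a b) :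
    ∀ y ∈ UU φ t c, ∃ a y', y = φ a * y' ∧ t⁻¹ * y' * t ∈ UU φ t c := by
  intro y hy
  obtain ⟨a, b, d, rfl⟩ := S.nf_of_mem hCR hy
  refine ⟨a, x13 φ t c b * x23 φ c d, by group, ?_⟩
  obtain ⟨b', hb⟩ := S.tinv_13.ex b
  obtain ⟨d', hd⟩ := S.tinv_23.ex d
  rw [inv_inv] at hb hd
  have : t⁻¹ * (x13 φ t c b * x23 φ c d) * t
      = (t⁻¹ * x13 φ t c b * t) * (t⁻¹ * x23 φ c d * t) := by group
  rw [this, hb, hd]
  exact (UU φ t c).mul_mem (mem23 _) (mem13 _)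

theorem d1_2 (S : S3 φ g t c ζ e) (hCR : ∀ a b, CR φ t c a b) :
    ∀ y ∈ UU φ t c, ∃ a y', y = x23 φ c a * y' ∧
      (c * t * c⁻¹)⁻¹ * y' * (c * t * c⁻¹) ∈ UU φ t c := by
  intro y hy
  obtain ⟨a, b, d, rfl⟩ := S.nf_of_mem hCR hy
  refine ⟨d, φ a * x13 φ t c (a * d) * x13 φ t c b, ?_, ?_⟩
  · symm
    calc x23 φ c d * (φ a * x13 φ t c (a * d) * x13 φ t c b)
        = (x23 φ c d * φ a) * x13 φ t c (a * d) * x13 φ t c b := by group
      _ = φ a * x13 φ t c (-(a * d)) * (x23 φ c d * x13 φ t c (a * d)) * x13 φ t c b := by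
          rw [S.swap hCR]; group
      _ = φ a * (x23 φ c d * x13 φ t c b) := by
          rw [S.comm_23_13 hCR, phi_neg S.add13]; group
      _ = _ := by rw [S.comm_23_13 hCR]; group
  · obtain ⟨a', ha⟩ := S.t2inv_12.ex a
    obtain ⟨b', hb⟩ := S.t2inv_13.ex (a * d)
    obtain ⟨b'', hb2⟩ := S.t2inv_13.ex b
    rw [inv_inv] at ha hb hb2
    have : (c * t * c⁻¹)⁻¹ * (φ a * x13 φ t c (a * d) * x13 φ t c b) * (c * t * c⁻¹)
        = ((c * t * c⁻¹)⁻¹ * φ a * (c * t * c⁻¹)) *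
          ((c * t * c⁻¹)⁻¹ * x13 φ t c (a * d) * (c * t * c⁻¹)) *
          ((c * t * c⁻¹)⁻¹ * x13 φ t c b * (c * t * c⁻¹)) := by group
    rw [this, ha, hb, hb2]
    exact (UU φ t c).mul_mem ((UU φ t c).mul_mem (mem13 _) (mem12 _)) (mem12 _)

/-- the rank one identity -/
theorem d2_1 (S : S3 φ g t c ζ e) (hgen : ∀ b : F, b ≠ 0 → ∃ j : ℕ, ζ ^ j = b) :
    ∀ a : F, a ≠ 0 → ∃ a', ∃ η ∈ HH g c, ∃ a'', φ a * t = x21 φ t a' * η * φ a'' := by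
  intro a ha
  obtain ⟨j, hj⟩ := hgen (-a⁻¹) (neg_ne_zero.mpr (inv_ne_zero ha))
  have hR := S.RRall j
  unfold RR at hR
  rw [hj] at hR
  have e1 : (-a⁻¹)⁻¹ = -a := by rw [inv_neg, inv_inv]
  rw [e1] at hR
  -- hR : φ b * t * φ (-a) * t⁻¹ * φ b = h^j * t
  have P := S.pre0
  have hmem : g2 ^ j ∈ HH g c := (HH g c).pow_mem S.g2_mem j
  obtain ⟨a', ha'⟩ := (S.tor_of_mem hmem).m21.ex a
  refine ⟨a', g2 ^ j, hmem, -a⁻¹, ?_⟩
  rw [← ha']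
  have e2 : t = ((g2⁻¹) ^ j)⁻¹ * (φ (-a⁻¹) * x21 φ t a * φ (-a⁻¹)) := by
    have : φ (-a⁻¹) * x21 φ t a * φ (-a⁻¹) = (g2⁻¹) ^ j * t := by
      rw [← hR]; unfold x21; group
    rw [this]; group
  have e3 : (g2⁻¹) ^ j * φ a * ((g2⁻¹) ^ j)⁻¹ = φ (a⁻¹) := by
    rw [P.conj_pow, ← pow_mul, mul_comm 2 j, pow_mul, hj]
    congr 1
    field_simp
  have e4 : ((g2⁻¹) ^ j)⁻¹ = g2 ^ j := by rw [inv_pow, inv_inv]
  have e5 : φ a * g2 ^ j = g2 ^ j * φ a⁻¹ := by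
    rw [← e3, e4]
    have : (g2⁻¹) ^ j = (g2 ^ j)⁻¹ := by rw [inv_pow]
    rw [this]; group
  calc φ a * t = φ a * (g2 ^ j * (φ (-a⁻¹) * x21 φ t a * φ (-a⁻¹))) := by
        conv_lhs => rw [e2, e4]
    _ = (φ a * g2 ^ j) * φ (-a⁻¹) * x21 φ t a * φ (-a⁻¹) := by group
    _ = g2 ^ j * (φ a⁻¹ * φ (-a⁻¹)) * x21 φ t a * φ (-a⁻¹) := by rw [e5]; group
    _ = _ := by rw [phi_neg S.add]; group

theorem d2_2 (S : S3 φ g t c ζ e) (hgen : ∀ b : F, b ≠ 0 → ∃ j : ℕ, ζ ^ j = b) :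
    ∀ a : F, a ≠ 0 → ∃ a', ∃ η ∈ HH g c, ∃ a'',
      x23 φ c a * (c * t * c⁻¹) = x32 φ t c a' * η * x23 φ c a'' := by
  intro a ha
  obtain ⟨a', η, hη, a'', h⟩ := S.d2_1 hgen a ha
  refine ⟨a', c * η * c⁻¹, S.cH hη, a'', ?_⟩
  have : x23 φ c a * (c * t * c⁻¹) = c * (φ a * t) * c⁻¹ := by unfold x23; group
  rw [this, h]
  unfold x32 x23 x21; group

theorem c3' (S : S3 φ g t c ζ e) : c ^ 3 = 1 := by
  rw [pow_succ, pow_two]; exact S.c3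

theorem cpow_mod (S : S3 φ g t c ζ e) (i : ℕ) : c ^ i = c ^ (i % 3) := by
  conv_lhs => rw [← Nat.mod_add_div i 3]
  rw [pow_add, pow_mul, S.c3', one_pow, mul_one]

theorem memU_of_Mv {w : Γ} {x x' : F → Γ} (h : Mv w x x') (hx' : ∀ a, x' a ∈ UU φ t c) (a : F) :
    w * x a * w⁻¹ ∈ UU φ t c := by
  obtain ⟨a', h⟩ := h.ex a
  rw [h]; exact hx' _

theorem d3_1 (S : S3 φ g t c ζ e) : ∀ w ∈ WW t c,
    (∀ a, w * φ a * w⁻¹ ∈ UU φ t c) ∨ (∀ a, w * x21 φ t a * w⁻¹ ∈ UU φ t c) := by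
  have o : (1 : F) ≠ 0 := one_ne_zero
  rintro w ⟨i, rfl | rfl⟩
  · rw [S.cpow_mod i]
    have hi : i % 3 < 3 := Nat.mod_lt _ (by norm_num)
    interval_cases (i % 3)
    · left; exact memU_of_Mv (((Maps.one φ).mv o).congr (by simp)) mem12
    · left; exact memU_of_Mv ((S.c_12.mv o).congr (by simp)) mem23
    · right; exact memU_of_Mv (((S.c_32.mv o).comp (S.c_21.mv o)).congr (by rw [pow_two])) mem13
  · rw [S.cpow_mod i]
    have hi : i % 3 < 3 := Nat.mod_lt _ (by norm_num)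
    interval_cases (i % 3)
    · right; exact memU_of_Mv (S.t_21.congr (by simp)) mem12
    · right; exact memU_of_Mv (((S.c_12.mv o).comp S.t_21).congr (by simp)) mem23
    · left
      exact memU_of_Mv (((S.c_32.mv o).comp ((S.c_21.mv o).comp (S.t_12.mv ne1))).congr
        (by rw [pow_two]; group)) mem13

theorem d3_2 (S : S3 φ g t c ζ e) : ∀ w ∈ WW t c,
    (∀ a, w * x23 φ c a * w⁻¹ ∈ UU φ t c) ∨ (∀ a, w * x32 φ t c a * w⁻¹ ∈ UU φ t c) := by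
  have o : (1 : F) ≠ 0 := one_ne_zero
  rintro w ⟨i, rfl | rfl⟩
  · rw [S.cpow_mod i]
    have hi : i % 3 < 3 := Nat.mod_lt _ (by norm_num)
    interval_cases (i % 3)
    · left; exact memU_of_Mv (((Maps.one _).mv o).congr (by simp)) mem23
    · right; exact memU_of_Mv ((S.c_32.mv o).congr (by simp)) mem13
    · left; exact memU_of_Mv (((S.c_31.mv o).comp (S.c_23.mv o)).congr (by rw [pow_two])) mem12
  · rw [S.cpow_mod i]
    have hi : i % 3 < 3 := Nat.mod_lt _ (by norm_num)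
    interval_cases (i % 3)
    · left; exact memU_of_Mv (S.t_23.congr (by simp)) mem13
    · right; exact memU_of_Mv (((S.c_31.mv o).comp S.t_32).congr (by simp)) mem12
    · right
      exact memU_of_Mv (((S.c_12.mv o).comp ((S.c_31.mv o).comp S.t_32)).congr
        (by rw [pow_two]; group)) mem23

theorem d4_1 (S : S3 φ g t c ζ e) : ∀ w ∈ WW t c, ∃ η ∈ HH g c, ∃ w' ∈ WW t c, w * t = η * w' := by
  rintro w ⟨i, rfl | rfl⟩
  · exact ⟨1, (HH g c).one_mem, c ^ i * t, ⟨i, Or.inr rfl⟩, by simp⟩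
  · refine ⟨c ^ i * g2 ^ e * (c ^ i)⁻¹, S.cpowH i ((HH g c).pow_mem S.g2_mem e), c ^ i,
      ⟨i, Or.inl rfl⟩, ?_⟩
    rw [mul_assoc, S.tt]; group

theorem t_cinv (S : S3 φ g t c ζ e) : t * c⁻¹ = c * (g2 ^ e)⁻¹ * t := by
  have h : t * c⁻¹ * t⁻¹ = (t * c * t⁻¹)⁻¹ := by group
  rw [S.tc] at h
  calc t * c⁻¹ = (t * c⁻¹ * t⁻¹) * t := by group
    _ = _ := by rw [h]; group

theorem t_t2 (S : S3 φ g t c ζ e) : t * (c * t * c⁻¹) = g2 ^ e * g1 ^ e * c := by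
  have h1 : t * (c * t * c⁻¹) = (t * c * t⁻¹) * (t * t) * c⁻¹ := by group
  have h2 : g1 ^ e = c⁻¹ * g2 ^ e * c := by
    have e1 : (c⁻¹ * g2 * c⁻¹⁻¹) ^ e = c⁻¹ * g2 ^ e * c⁻¹⁻¹ := conj_pow
    have e2 : c⁻¹ * g2 * c⁻¹⁻¹ = g1 := by group
    rw [e2, inv_inv] at e1; exact e1
  rw [h1, S.tc, S.tt, h2]
  have h3 : c⁻¹ = c * c := S.cinv
  calc g2 ^ e * c⁻¹ * g2 ^ e * c⁻¹ = g2 ^ e * (c⁻¹ * g2 ^ e * c) * (c⁻¹ * c⁻¹) := by group
    _ = g2 ^ e * (c⁻¹ * g2 ^ e * c) * c := by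
        congr 1
        calc c⁻¹ * c⁻¹ = c⁻¹ * c⁻¹ * (c * c * c) := by rw [S.c3, mul_one]
          _ = c := by group

theorem d4_2 (S : S3 φ g t c ζ e) : ∀ w ∈ WW t c, ∃ η ∈ HH g c, ∃ w' ∈ WW t c,
    w * (c * t * c⁻¹) = η * w' := by
  rintro w ⟨i, rfl | rfl⟩
  · refine ⟨c ^ (i + 2) * (g2 ^ e)⁻¹ * (c ^ (i + 2))⁻¹,
      S.cpowH _ ((HH g c).inv_mem ((HH g c).pow_mem S.g2_mem e)), c ^ (i + 2) * t,
      ⟨i + 2, Or.inr rfl⟩, ?_⟩
    calc c ^ i * (c * t * c⁻¹) = c ^ i * c * (t * c⁻¹) := by group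
      _ = c ^ i * c * (c * (g2 ^ e)⁻¹ * t) := by rw [S.t_cinv]
      _ = _ := by rw [pow_add, pow_two]; group
  · refine ⟨c ^ i * (g2 ^ e * g1 ^ e) * (c ^ i)⁻¹,
      S.cpowH _ ((HH g c).mul_mem ((HH g c).pow_mem S.g2_mem e) ((HH g c).pow_mem g1_mem e)),
      c ^ (i + 1), ⟨i + 1, Or.inl rfl⟩, ?_⟩
    calc c ^ i * t * (c * t * c⁻¹) = c ^ i * (t * (c * t * c⁻¹)) := by group
      _ = _ := by rw [S.t_t2, pow_succ]; group

theorem inC_all (S : S3 φ g t c ζ e) (hgen : ∀ b : F, b ≠ 0 → ∃ j : ℕ, ζ ^ j = b)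
    (hΓ : Subgroup.closure ({φ 1, g, t, c} : Set Γ) = ⊤) (x : Γ) :
    InC (UU φ t c) (HH g c) (WW t c) x := by
  have hCR := S.CR_all hgen
  have D := S.bn
  have mt : ∀ {x}, InC (UU φ t c) (HH g c) (WW t c) x → InC (UU φ t c) (HH g c) (WW t c) (x * t) :=
    fun hx => D.inC_mul_ts φ (x21 φ t) t (S.d1_1 hCR) (S.d2_1 hgen) S.d3_1 S.d4_1 mem12
      (phi_zero S.add) hx
  have mt2 : ∀ {x}, InC (UU φ t c) (HH g c) (WW t c) x →
      InC (UU φ t c) (HH g c) (WW t c) (x * (c * t * c⁻¹)) :=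
    fun hx => D.inC_mul_ts (x23 φ c) (x32 φ t c) (c * t * c⁻¹) (S.d1_2 hCR) (S.d2_2 hgen) S.d3_2
      S.d4_2 mem23 (phi_zero S.add23) hx
  have mc : ∀ {x}, InC (UU φ t c) (HH g c) (WW t c) x → InC (UU φ t c) (HH g c) (WW t c) (x * c) := by
    intro x hx
    have hk : (g2 ^ e * g1 ^ e)⁻¹ ∈ HH g c :=
      (HH g c).inv_mem ((HH g c).mul_mem ((HH g c).pow_mem S.g2_mem e) ((HH g c).pow_mem g1_mem e))
    have : x * c = x * (g2 ^ e * g1 ^ e)⁻¹ * t * (c * t * c⁻¹) := by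
      have h := S.t_t2
      calc x * c = x * (g2 ^ e * g1 ^ e)⁻¹ * (g2 ^ e * g1 ^ e * c) := by group
        _ = _ := by rw [← h]; group
    rw [this]
    exact mt2 (mt (D.inC_mul_H hx hk))
  have hx : x ∈ Subgroup.closure ({φ 1, g, t, c} : Set Γ) := by rw [hΓ]; trivial
  induction hx using Subgroup.closure_induction_right with
  | one => exact D.inC_one
  | mul_right x _ y hy ih =>
    rcases hy with rfl | rfl | rfl | rfl
    · exact D.inC_mul_U ih (mem12 _)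
    · exact D.inC_mul_H ih g_mem
    · exact mt ih
    · exact mc ih
  | mul_inv_cancel x _ y hy ih =>
    rcases hy with rfl | hy | hy | hy
    · exact D.inC_mul_U ih ((UU φ t c).inv_mem (mem12 _))
    · rw [hy]; exact D.inC_mul_H ih ((HH _ c).inv_mem g_mem)
    · have : x * t⁻¹ = x * t * (g2 ^ e)⁻¹ := by rw [← S.tt]; group
      rw [hy, this]
      exact D.inC_mul_H (mt ih) ((HH g c).inv_mem ((HH g c).pow_mem S.g2_mem e))
    · rw [Set.mem_singleton_iff] at hy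
      rw [hy, S.cinv, ← mul_assoc]
      exact mc (mc ih)

end S3

end Cfsg.Agent.Lib.Helper43P3
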