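import Cfsg.Agent.Lib.Helper43P3E

set_option autoImplicit false
set_option linter.unusedSimpArgs false

namespace Cfsg.Agent.Lib.Helper43P3

open Cfsg.Agent.Lib.Helper43Pres Matrix

variable {F : Type*} [Field F]

/-- raw matrices -/
def m12 (a : F) : Matrix (Fin 3) (Fin 3) F := !![1, a, 0; 0, 1, 0; 0, 0, 1]
def m13 (a : F) : Matrix (Fin 3) (Fin 3) F := !![1, 0, a; 0, 1, 0; 0, 0, 1]
def m23 (a : F) : Matrix (Fin 3) (Fin 3) F := !![1, 0, 0; 0, 1, a; 0, 0, 1]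
def mT : Matrix (Fin 3) (Fin 3) F := !![0, 1, 0; -1, 0, 0; 0, 0, 1]
def mT' : Matrix (Fin 3) (Fin 3) F := !![0, -1, 0; 1, 0, 0; 0, 0, 1]
def mC : Matrix (Fin 3) (Fin 3) F := !![0, 0, 1; 1, 0, 0; 0, 1, 0]
def mC' : Matrix (Fin 3) (Fin 3) F := !![0, 1, 0; 0, 0, 1; 1, 0, 0]
def mD (a b d : F) : Matrix (Fin 3) (Fin 3) F := !![a, 0, 0; 0, b, 0; 0, 0, d]

def M12 (a : F) : SpecialLinearGroup (Fin 3) F := ⟨m12 a, by simp [m12, det_fin_three]⟩
def M13 (a : F) : SpecialLinearGroup (Fin 3) F := ⟨m13 a, by simp [m13, det_fin_three]⟩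
def M23 (a : F) : SpecialLinearGroup (Fin 3) F := ⟨m23 a, by simp [m23, det_fin_three]⟩
def MT : SpecialLinearGroup (Fin 3) F := ⟨mT, by simp [mT, det_fin_three]⟩
def MT' : SpecialLinearGroup (Fin 3) F := ⟨mT', by simp [mT', det_fin_three]⟩
def MC : SpecialLinearGroup (Fin 3) F := ⟨mC, by simp [mC, det_fin_three]⟩
def MC' : SpecialLinearGroup (Fin 3) F := ⟨mC', by simp [mC', det_fin_three]⟩
def MD (a b : Fˣ) : SpecialLinearGroup (Fin 3) F :=
  ⟨mD (a : F) (b : F) ((a : F)⁻¹ * (b : F)⁻¹), by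
    simp [mD, det_fin_three]; field_simp⟩

theorem MT_inv : (MT : SpecialLinearGroup (Fin 3) F)⁻¹ = MT' := by
  apply inv_eq_of_mul_eq_one_right
  apply Subtype.ext
  show (mT : Matrix (Fin 3) (Fin 3) F) * mT' = 1
  ext i j; fin_cases i <;> fin_cases j <;>
    simp [m12, m13, m23, mT, mT', mC, mC', mD, Matrix.mul_apply, Fin.sum_univ_three]

theorem MC_inv : (MC : SpecialLinearGroup (Fin 3) F)⁻¹ = MC' := by
  apply inv_eq_of_mul_eq_one_right
  apply Subtype.ext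
  show (mC : Matrix (Fin 3) (Fin 3) F) * mC' = 1
  ext i j; fin_cases i <;> fin_cases j <;>
    simp [m12, m13, m23, mT, mT', mC, mC', mD, Matrix.mul_apply, Fin.sum_univ_three]

theorem M12_add (a b : F) : M12 (a + b) = M12 a * M12 b := by
  apply Subtype.ext
  show m12 (a + b) = m12 a * m12 b
  ext i j; fin_cases i <;> fin_cases j <;>
    simp [m12, m13, m23, mT, mT', mC, mC', mD, Matrix.mul_apply, Fin.sum_univ_three]
  exact add_comm _ _

theorem M23_add (a b : F) : M23 (a + b) = M23 a * M23 b := by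
  apply Subtype.ext
  show m23 (a + b) = m23 a * m23 b
  ext i j; fin_cases i <;> fin_cases j <;>
    simp [m12, m13, m23, mT, mT', mC, mC', mD, Matrix.mul_apply, Fin.sum_univ_three]
  exact add_comm _ _

theorem MD_mul (a b a' b' : Fˣ) : MD (a * a') (b * b') = MD a b * MD a' b' := by
  apply Subtype.ext
  show mD ((a * a' : Fˣ) : F) ((b * b' : Fˣ) : F) (((a * a' : Fˣ) : F)⁻¹ * ((b * b' : Fˣ) : F)⁻¹)
    = mD (a : F) (b : F) ((a : F)⁻¹ * (b : F)⁻¹) * mD (a' : F) (b' : F) ((a' : F)⁻¹ * (b' : F)⁻¹)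
  ext i j; fin_cases i <;> fin_cases j <;>
    simp [m12, m13, m23, mT, mT', mC, mC', mD, Matrix.mul_apply, Fin.sum_univ_three]
  ring

theorem MD_one : MD (1 : Fˣ) 1 = 1 := by
  apply Subtype.ext
  show mD ((1 : Fˣ) : F) ((1 : Fˣ) : F) (((1 : Fˣ) : F)⁻¹ * ((1 : Fˣ) : F)⁻¹) = 1
  ext i j; fin_cases i <;> fin_cases j <;>
    simp [m12, m13, m23, mT, mT', mC, mC', mD, Matrix.mul_apply, Fin.sum_univ_three]

/-- the diagonal torus as a homomorphism -/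
def MDhom : Fˣ × Fˣ →* SpecialLinearGroup (Fin 3) F where
  toFun s := MD s.1 s.2
  map_one' := MD_one
  map_mul' s s' := MD_mul _ _ _ _

theorem MD_inv (a b : Fˣ) : (MD a b)⁻¹ = MD a⁻¹ b⁻¹ := by
  apply inv_eq_of_mul_eq_one_right
  rw [← MD_mul, mul_inv_cancel, mul_inv_cancel, MD_one]

theorem MD_pow (a b : Fˣ) (n : ℕ) : MD a b ^ n = MD (a ^ n) (b ^ n) :=
  (map_pow MDhom (a, b) n).symm

theorem MD_zpow (a b : Fˣ) (n : ℤ) : MD a b ^ n = MD (a ^ n) (b ^ n) :=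
  (map_zpow MDhom (a, b) n).symm

theorem MD_conj_12 (a b : Fˣ) (x : F) :
    MD a b * M12 x * (MD a b)⁻¹ = M12 ((a : F) * (b : F)⁻¹ * x) := by
  rw [MD_inv]
  apply Subtype.ext
  show mD (a : F) (b : F) ((a : F)⁻¹ * (b : F)⁻¹) * m12 x *
    mD ((a⁻¹ : Fˣ) : F) ((b⁻¹ : Fˣ) : F) (((a⁻¹ : Fˣ) : F)⁻¹ * ((b⁻¹ : Fˣ) : F)⁻¹)
    = m12 ((a : F) * (b : F)⁻¹ * x)
  ext i j; fin_cases i <;> fin_cases j <;>
    simp [m12, m13, m23, mT, mT', mC, mC', mD, Matrix.mul_apply, Fin.sum_univ_three]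
  · ring
  · field_simp

theorem MC_conj_MD (a b : Fˣ) : MC * MD a b * MC⁻¹ = MD (a * b)⁻¹ a := by
  rw [MC_inv]
  apply Subtype.ext
  show mC * mD (a : F) (b : F) ((a : F)⁻¹ * (b : F)⁻¹) * mC'
    = mD (((a * b)⁻¹ : Fˣ) : F) (a : F) ((((a * b)⁻¹ : Fˣ) : F)⁻¹ * (a : F)⁻¹)
  ext i j; fin_cases i <;> fin_cases j <;>
    simp [m12, m13, m23, mT, mT', mC, mC', mD, Matrix.mul_apply, Fin.sum_univ_three]
  · ring
  · field_simp

theorem MT_conj_MD (a b : Fˣ) : MT * MD a b * MT⁻¹ = MD b a := by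
  rw [MT_inv]
  apply Subtype.ext
  show mT * mD (a : F) (b : F) ((a : F)⁻¹ * (b : F)⁻¹) * mT'
    = mD (b : F) (a : F) ((b : F)⁻¹ * (a : F)⁻¹)
  ext i j; fin_cases i <;> fin_cases j <;>
    simp [m12, m13, m23, mT, mT', mC, mC', mD, Matrix.mul_apply, Fin.sum_univ_three]
  ring

theorem M_R0 : M12 (1 : F) * MT * M12 1 * MT⁻¹ * M12 1 = MT := by
  rw [MT_inv]
  apply Subtype.ext
  show m12 (1 : F) * mT * m12 1 * mT' * m12 1 = mT
  ext i j; fin_cases i <;> fin_cases j <;>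
    simp [m12, m13, m23, mT, mT', mC, mC', mD, Matrix.mul_apply, Fin.sum_univ_three]

theorem M_tc : (MT : SpecialLinearGroup (Fin 3) F) * MC * MT⁻¹ = MD (-1) (-1) * MC⁻¹ := by
  rw [MT_inv, MC_inv]
  apply Subtype.ext
  show (mT : Matrix (Fin 3) (Fin 3) F) * mC * mT'
    = mD ((-1 : Fˣ) : F) ((-1 : Fˣ) : F) (((-1 : Fˣ) : F)⁻¹ * ((-1 : Fˣ) : F)⁻¹) * mC'
  ext i j; fin_cases i <;> fin_cases j <;>
    simp [m12, m13, m23, mT, mT', mC, mC', mD, Matrix.mul_apply, Fin.sum_univ_three]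

theorem M_c3 : (MC : SpecialLinearGroup (Fin 3) F) * MC * MC = 1 := by
  apply Subtype.ext
  show (mC : Matrix (Fin 3) (Fin 3) F) * mC * mC = 1
  ext i j; fin_cases i <;> fin_cases j <;>
    simp [m12, m13, m23, mT, mT', mC, mC', mD, Matrix.mul_apply, Fin.sum_univ_three]

theorem M_x23 (a : F) : x23 M12 MC a = M23 a := by
  unfold x23
  rw [MC_inv]
  apply Subtype.ext
  show mC * m12 a * mC' = m23 a
  ext i j; fin_cases i <;> fin_cases j <;>
    simp [m12, m13, m23, mT, mT', mC, mC', mD, Matrix.mul_apply, Fin.sum_univ_three]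

theorem M_x13 (a : F) : x13 M12 MT MC a = M13 a := by
  unfold x13
  rw [MC_inv, MT_inv]
  apply Subtype.ext
  show mC * (mC * (mT * m12 (-a) * mT') * mC') * mC' = m13 a
  ext i j; fin_cases i <;> fin_cases j <;>
    simp [m12, m13, m23, mT, mT', mC, mC', mD, Matrix.mul_apply, Fin.sum_univ_three]

theorem M_comm (a b : F) : M12 a * M23 b * (M12 a)⁻¹ * (M23 b)⁻¹ = M13 (a * b) := by
  rw [← phi_neg M12_add, ← phi_neg M23_add]
  apply Subtype.ext
  show m12 a * m23 b * m12 (-a) * m23 (-b) = m13 (a * b)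
  ext i j; fin_cases i <;> fin_cases j <;>
    simp [m12, m13, m23, mT, mT', mC, mC', mD, Matrix.mul_apply, Fin.sum_univ_three]

end Cfsg.Agent.Lib.Helper43P3
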