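import Cfsg.Agent.Lib.Helper43P3F

set_option autoImplicit false
set_option linter.unusedSimpArgs false

namespace Cfsg.Agent.Lib.Helper43P3

open Cfsg.Agent.Lib.Helper43Pres Matrix

variable {F : Type*} [Field F]

theorem MD_g1 (z : Fˣ) : MC * MD 1 z⁻¹ * MC⁻¹ = MD z 1 := by
  rw [MC_conj_MD]; simp

theorem MD_g2 (z : Fˣ) : MC * (MC * MD 1 z⁻¹ * MC⁻¹) * MC⁻¹ = MD z⁻¹ z := by
  rw [MD_g1, MC_conj_MD]; simp

/-- the model -/
theorem sl3_S3 (z : Fˣ) (e : ℕ) (he : (z : F) ^ e = -1) :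
    S3 (M12 : F → _) (MD 1 z⁻¹) MT MC (z : F) e where
  add := M12_add
  hg := by intro a; rw [MD_conj_12]; simp
  ζ_ne := z.ne_zero
  he := he
  c3 := M_c3
  g01 := by rw [MD_g1, ← MD_mul, ← MD_mul, mul_comm, mul_comm z⁻¹]
  gprod := by rw [MD_g2, MD_g1, ← MD_mul, ← MD_mul]; simp [MD_one]
  hu := by
    intro a
    rw [MD_g2, MD_inv, MD_conj_12]
    congr 1
    simp [pow_two]
  tg2 := by rw [MD_g2, MT_conj_MD, MD_inv, inv_inv]
  R0 := M_R0
  tc := by
    rw [MD_g2, MD_pow, M_tc]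
    have h1 : z ^ e = -1 := by
      apply Units.ext; simpa using he
    rw [inv_pow, h1]; simp
  com := by
    intro i _
    rw [M_x23, M_x13, M_comm, one_mul]

/-- upper triangular with nonzero diagonal -/
structure UT (M : Matrix (Fin 3) (Fin 3) F) : Prop where
  l10 : M 1 0 = 0
  l20 : M 2 0 = 0
  l21 : M 2 1 = 0
  d0 : M 0 0 ≠ 0
  d1 : M 1 1 ≠ 0
  d2 : M 2 2 ≠ 0

theorem UT.mul {A B : Matrix (Fin 3) (Fin 3) F} (hA : UT A) (hB : UT B) : UT (A * B) where
  l10 := by simp [Matrix.mul_apply, Fin.sum_univ_three, hA.l10, hB.l10, hB.l20]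
  l20 := by simp [Matrix.mul_apply, Fin.sum_univ_three, hA.l20, hA.l21, hB.l20]
  l21 := by simp [Matrix.mul_apply, Fin.sum_univ_three, hA.l20, hA.l21, hB.l21]
  d0 := by
    simp [Matrix.mul_apply, Fin.sum_univ_three, hB.l10, hB.l20, hA.d0, hB.d0]
  d1 := by
    simp [Matrix.mul_apply, Fin.sum_univ_three, hA.l10, hB.l21, hA.d1, hB.d1]
  d2 := by
    simp [Matrix.mul_apply, Fin.sum_univ_three, hA.l20, hA.l21, hA.d2, hB.d2]

theorem UT_12 (a : F) : UT (m12 a) := by constructor <;> simp [m12]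
theorem UT_13 (a : F) : UT (m13 a) := by constructor <;> simp [m13]
theorem UT_23 (a : F) : UT (m23 a) := by constructor <;> simp [m23]
theorem UT_D (a b : Fˣ) : UT (mD (a : F) (b : F) ((a : F)⁻¹ * (b : F)⁻¹)) := by
  constructor <;> simp [mD]

theorem lower_zero {A W B : Matrix (Fin 3) (Fin 3) F} (hA : UT A) (hB : UT B)
    (h : A * W * B = 1) : W 1 0 = 0 ∧ W 2 0 = 0 ∧ W 2 1 = 0 := by
  have e20 := congrFun (congrFun h 2) 0
  have e21 := congrFun (congrFun h 2) 1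
  have e10 := congrFun (congrFun h 1) 0
  simp [Matrix.mul_apply, Fin.sum_univ_three, hA.l10, hA.l20, hA.l21, hB.l10, hB.l20, hB.l21,
    hA.d2, hB.d0] at e20
  simp [Matrix.mul_apply, Fin.sum_univ_three, hA.l10, hA.l20, hA.l21, hB.l10, hB.l20, hB.l21,
    hA.d2, hB.d1, e20] at e21
  simp [Matrix.mul_apply, Fin.sum_univ_three, hA.l10, hA.l20, hA.l21, hB.l10, hB.l20, hB.l21,
    hA.d1, hB.d0, e20] at e10
  exact ⟨e10, e20, e21⟩

namespace S3

variable {Γ : Type*} [Group Γ] {φ : F → Γ} {g t c : Γ} {ζ : F} {e : ℕ}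

local notation "g1" => (c * g * c⁻¹)
local notation "g2" => (c * (c * g * c⁻¹) * c⁻¹)

theorem H_nf (S : S3 φ g t c ζ e) {η : Γ} (hη : η ∈ HH g c) : ∃ m n : ℤ, η = g ^ m * g1 ^ n := by
  have hc : Commute g g1 := S.g01
  induction hη using Subgroup.closure_induction with
  | mem x hx =>
    rcases hx with hx | hx
    · exact ⟨1, 0, by rw [hx]; simp⟩
    · rw [Set.mem_singleton_iff] at hx
      exact ⟨0, 1, by rw [hx]; simp⟩
  | one => exact ⟨0, 0, by simp⟩
  | mul x y _ _ ihx ihy =>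
    obtain ⟨m, n, rfl⟩ := ihx
    obtain ⟨m', n', rfl⟩ := ihy
    refine ⟨m + m', n + n', ?_⟩
    rw [_root_.zpow_add, _root_.zpow_add]
    have := (hc.zpow_zpow m' n).eq
    calc g ^ m * g1 ^ n * (g ^ m' * g1 ^ n') = g ^ m * (g1 ^ n * g ^ m') * g1 ^ n' := by group
      _ = g ^ m * (g ^ m' * g1 ^ n) * g1 ^ n' := by rw [this]
      _ = _ := by group
  | inv x _ ih =>
    obtain ⟨m, n, rfl⟩ := ih
    refine ⟨-m, -n, ?_⟩
    rw [_root_.mul_inv_rev, _root_.zpow_neg, _root_.zpow_neg]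
    exact ((hc.zpow_zpow m n).inv_inv).eq.symm

theorem g_pow (S : S3 φ g t c ζ e) {N : ℕ} (hN : ζ ^ N = 1) : g ^ N = 1 ∧ g1 ^ N = 1 := by
  have h1 : (g2⁻¹) ^ N = 1 := h_pow_of_RR hN S.RR0 (S.RRall N)
  have h2 : g2 ^ N = 1 := by rw [inv_pow, inv_eq_one] at h1; exact h1
  have h3 : g ^ N = 1 := by rw [← S.cg2, conj_pow, h2]; group
  exact ⟨h3, by rw [conj_pow, h3]; group⟩

theorem injective (S : S3 φ g t c ζ e)
    (hgen : ∀ b : F, b ≠ 0 → ∃ j : ℕ, ζ ^ j = b) (z : Fˣ) (hz : (z : F) = ζ)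
    (hΓ : Subgroup.closure ({φ 1, g, t, c} : Set Γ) = ⊤)
    (π : Γ →* SpecialLinearGroup (Fin 3) F) (h1 : ∀ a, π (φ a) = M12 a)
    (h2 : π g = MD 1 z⁻¹) (h3 : π t = MT) (h4 : π c = MC) : Function.Injective π := by
  rw [injective_iff_map_eq_one]
  intro x hx
  have hCR := S.CR_all hgen
  have p13 : ∀ b, π (x13 φ t c b) = M13 b := by
    intro b
    unfold x13
    simp only [map_mul, map_inv, h1, h3, h4]
    exact M_x13 b
  have p23 : ∀ b, π (x23 φ c b) = M23 b := by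
    intro b
    unfold x23
    simp only [map_mul, map_inv, h1, h4]
    exact M_x23 b
  have pU : ∀ y ∈ UU φ t c, UT (π y).1 := by
    intro y hy
    obtain ⟨a, b, d, rfl⟩ := S.nf_of_mem hCR hy
    rw [map_mul, map_mul, h1, p13, p23]
    exact ((UT_12 a).mul (UT_13 b)).mul (UT_23 d)
  have pg1 : π g1 = MD z 1 := by
    rw [map_mul, map_mul, map_inv, h2, h4, MD_g1]
  have pH : ∀ m n : ℤ, π (g ^ m * g1 ^ n) = MD (z ^ n) ((z ^ m)⁻¹) := by
    intro m n
    rw [map_mul, map_zpow, map_zpow, h2, pg1, MD_zpow, MD_zpow, ← MD_mul]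
    simp
  obtain ⟨y1, hy1, η, hη, w, hw, y2, hy2, rfl⟩ := S.inC_all hgen hΓ x
  obtain ⟨m, n, rfl⟩ := S.H_nf hη
  have hx' : π y1 * π (g ^ m * g1 ^ n) * π w * π y2 = 1 := by
    rw [← map_mul, ← map_mul, ← map_mul]; exact hx
  have hmat : ((π y1).1 * (π (g ^ m * g1 ^ n)).1) * (π w).1 * (π y2).1 = 1 :=
    congrArg Subtype.val hx'
  have hA : UT ((π y1).1 * (π (g ^ m * g1 ^ n)).1) := by
    refine (pU y1 hy1).mul ?_
    rw [pH]; exact UT_D _ _
  obtain ⟨w10, w20, w21⟩ := lower_zero hA (pU y2 hy2) hmat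
  -- identify w
  have hw1 : w = 1 := by
    obtain ⟨i, rfl | rfl⟩ := hw
    · rw [S.cpow_mod i] at w10 w20 w21 ⊢
      have hi : i % 3 < 3 := Nat.mod_lt _ (by norm_num)
      interval_cases (i % 3)
      · simp
      · exfalso
        rw [pow_one, h4] at w10
        have : (mC : Matrix (Fin 3) (Fin 3) F) 1 0 = 0 := w10
        simp [mC] at this
      · exfalso
        rw [pow_two, map_mul, h4] at w20
        have : (mC * mC : Matrix (Fin 3) (Fin 3) F) 2 0 = 0 := w20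
        simp [mC, Matrix.mul_apply, Fin.sum_univ_three] at this
    · exfalso
      rw [S.cpow_mod i] at w10 w20 w21
      have hi : i % 3 < 3 := Nat.mod_lt _ (by norm_num)
      interval_cases (i % 3)
      · rw [pow_zero, one_mul, h3] at w10
        have : (mT : Matrix (Fin 3) (Fin 3) F) 1 0 = 0 := w10
        simp [mT] at this
      · rw [pow_one, map_mul, h3, h4] at w20
        have : (mC * mT : Matrix (Fin 3) (Fin 3) F) 2 0 = 0 := w20
        simp [mC, mT, Matrix.mul_apply, Fin.sum_univ_three] at this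
      · rw [pow_two, map_mul, map_mul, h3, h4] at w21
        have : (mC * mC * mT : Matrix (Fin 3) (Fin 3) F) 2 1 = 0 := w21
        simp [mC, mT, Matrix.mul_apply, Fin.sum_univ_three] at this
  subst hw1
  -- now in the Borel subgroup
  set η := g ^ m * g1 ^ n with hηdef
  have hy : y1 * (η * y2 * η⁻¹) ∈ UU φ t c := (UU φ t c).mul_mem hy1 (S.HU η hη y2 hy2)
  obtain ⟨a, b, d, hnf⟩ := S.nf_of_mem hCR hy
  have hxe : y1 * η * 1 * y2 = (φ a * x13 φ t c b * x23 φ c d) * η := by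
    rw [← hnf]; group
  rw [hxe] at hx ⊢
  rw [map_mul, map_mul, map_mul, h1, p13, p23, hηdef, pH] at hx
  have hm2 : m12 a * m13 b * m23 d *
      mD ((z ^ n : Fˣ) : F) (((z ^ m)⁻¹ : Fˣ) : F)
        (((z ^ n : Fˣ) : F)⁻¹ * ((((z ^ m)⁻¹ : Fˣ)) : F)⁻¹) = 1 := congrArg Subtype.val hx
  have e00 := congrFun (congrFun hm2 0) 0
  have e11 := congrFun (congrFun hm2 1) 1
  have e01 := congrFun (congrFun hm2 0) 1
  have e12 := congrFun (congrFun hm2 1) 2
  have e02 := congrFun (congrFun hm2 0) 2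
  simp [m12, m13, m23, mD, Matrix.mul_apply, Fin.sum_univ_three] at e00 e11 e01 e12 e02
  have hzN : ζ ^ (orderOf z) = 1 := by
    rw [← hz, ← Units.val_pow_eq_pow_val, pow_orderOf_eq_one]; rfl
  obtain ⟨G0, G1⟩ := S.g_pow hzN
  have zm : z ^ m = 1 := Units.ext (by simpa using e11)
  have zn : z ^ n = 1 := Units.ext (by simpa using e00)
  obtain ⟨k, hk⟩ := orderOf_dvd_iff_zpow_eq_one.mpr zm
  obtain ⟨k', hk'⟩ := orderOf_dvd_iff_zpow_eq_one.mpr zn
  have gm : g ^ m = 1 := by rw [hk, _root_.zpow_mul, zpow_natCast, G0, _root_.one_zpow]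
  have gn : g1 ^ n = 1 := by rw [hk', _root_.zpow_mul, zpow_natCast, G1, _root_.one_zpow]
  rw [e11] at e01 e12 e02
  rw [e00] at e12 e02
  simp only [one_ne_zero, or_false] at e01 e12 e02
  rw [e01, e12] at e02
  simp only [mul_zero, zero_add] at e02
  rw [hηdef, gm, gn, e01, e12, e02, phi_zero S.add, phi_zero S.add13, phi_zero S.add23]
  simp

end S3

end Cfsg.Agent.Lib.Helper43P3
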