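import Cfsg.Agent.Lib.Helper43P3G

set_option autoImplicit false
set_option linter.unusedSimpArgs false

namespace Cfsg.Agent.Lib.Helper43P3

open Cfsg.Agent.Lib.Helper43Pres Matrix

section Gen

variable {F : Type*} [Field F]

theorem sl3_gen (p : ℕ) [Fact p.Prime] [Algebra (ZMod p) F] (z : Fˣ)
    (ha : Algebra.adjoin (ZMod p) {(z : F)} = ⊤) :
    Subgroup.closure ({M12 (1 : F), MD 1 z⁻¹, MT, MC} : Set (SpecialLinearGroup (Fin 3) F)) = ⊤ := by
  set K := Subgroup.closure ({M12 (1 : F), MD 1 z⁻¹, MT, MC} :
    Set (SpecialLinearGroup (Fin 3) F)) with hK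
  have hu : M12 (1 : F) ∈ K := Subgroup.subset_closure (by simp)
  have hg : MD 1 z⁻¹ ∈ K := Subgroup.subset_closure (by simp)
  have ht : (MT : SpecialLinearGroup (Fin 3) F) ∈ K := Subgroup.subset_closure (by simp)
  have hc : (MC : SpecialLinearGroup (Fin 3) F) ∈ K := Subgroup.subset_closure (by simp)
  have hconj : ∀ x : F, MD 1 z⁻¹ * M12 x * (MD 1 z⁻¹)⁻¹ = M12 ((z : F) * x) := by
    intro x; rw [MD_conj_12]; simp
  have hU : ∀ x : F, M12 x ∈ K := by
    intro x
    have : x ∈ Algebra.adjoin (ZMod p) {(z : F)} := by rw [ha]; trivial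
    rw [Algebra.adjoin_singleton_eq_range_aeval] at this
    obtain ⟨f, hf⟩ := this
    obtain ⟨L, rfl⟩ := exists_pL p f
    have hx : evL (z : F) L = x := by rw [← aeval_pL p]; exact hf
    have := W_phi (φ := (M12 : F → _)) M12_add hconj 1 L
    rw [mul_one, hx] at this
    rw [← this]
    exact W_mem K hu hg L
  have cj : ∀ {w y : SpecialLinearGroup (Fin 3) F}, w ∈ K → y ∈ K → w * y * w⁻¹ ∈ K :=
    fun hw hy => K.mul_mem (K.mul_mem hw hy) (K.inv_mem hw)
  rw [eq_top_iff]
  intro A _
  refine Cfsg.Agent.Lib.Helper6SL.transvection_induction (fun A => A ∈ K) ?_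
    (fun A B hA hB => K.mul_mem hA hB) A
  intro i j hij x
  fin_cases i <;> fin_cases j
  · exact absurd rfl hij
  · have : SpecialLinearGroup.transvection hij x = M12 x := by
      apply Subtype.ext
      show (SpecialLinearGroup.transvection hij x : Matrix (Fin 3) (Fin 3) F) = m12 x
      ext i j; fin_cases i <;> fin_cases j <;>
      simp [m12, m13, m23, mT, mT', mC, mC', mD, Matrix.mul_apply, Fin.sum_univ_three,
        SpecialLinearGroup.transvection_coe, Matrix.single_apply]
    rw [this]; exact hU x
  · have : SpecialLinearGroup.transvection hij x = x13 M12 MT MC x := by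
      rw [M_x13]
      apply Subtype.ext
      show (SpecialLinearGroup.transvection hij x : Matrix (Fin 3) (Fin 3) F) = m13 x
      ext i j; fin_cases i <;> fin_cases j <;>
      simp [m12, m13, m23, mT, mT', mC, mC', mD, Matrix.mul_apply, Fin.sum_univ_three,
        SpecialLinearGroup.transvection_coe, Matrix.single_apply]
    rw [this]; exact cj hc (cj hc (cj ht (hU _)))
  · have : SpecialLinearGroup.transvection hij x = x21 M12 MT x := by
      unfold x21
      rw [MT_inv]
      apply Subtype.ext
      show (SpecialLinearGroup.transvection hij x : Matrix (Fin 3) (Fin 3) F)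
        = mT * m12 (-x) * mT'
      ext i j; fin_cases i <;> fin_cases j <;>
      simp [m12, m13, m23, mT, mT', mC, mC', mD, Matrix.mul_apply, Fin.sum_univ_three,
        SpecialLinearGroup.transvection_coe, Matrix.single_apply]
    rw [this]; exact cj ht (hU _)
  · exact absurd rfl hij
  · have : SpecialLinearGroup.transvection hij x = x23 M12 MC x := by
      rw [M_x23]
      apply Subtype.ext
      show (SpecialLinearGroup.transvection hij x : Matrix (Fin 3) (Fin 3) F) = m23 x
      ext i j; fin_cases i <;> fin_cases j <;>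
      simp [m12, m13, m23, mT, mT', mC, mC', mD, Matrix.mul_apply, Fin.sum_univ_three,
        SpecialLinearGroup.transvection_coe, Matrix.single_apply]
    rw [this]; exact cj hc (hU _)
  · have : SpecialLinearGroup.transvection hij x = x31 M12 MC x := by
      unfold x31
      rw [MC_inv]
      apply Subtype.ext
      show (SpecialLinearGroup.transvection hij x : Matrix (Fin 3) (Fin 3) F)
        = mC * (mC * m12 x * mC') * mC'
      ext i j; fin_cases i <;> fin_cases j <;>
      simp [m12, m13, m23, mT, mT', mC, mC', mD, Matrix.mul_apply, Fin.sum_univ_three,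
        SpecialLinearGroup.transvection_coe, Matrix.single_apply]
    rw [this]; exact cj hc (cj hc (hU _))
  · have : SpecialLinearGroup.transvection hij x = x32 M12 MT MC x := by
      unfold x32
      rw [MC_inv, MT_inv]
      apply Subtype.ext
      show (SpecialLinearGroup.transvection hij x : Matrix (Fin 3) (Fin 3) F)
        = mC * (mT * m12 (-x) * mT') * mC'
      ext i j; fin_cases i <;> fin_cases j <;>
      simp [m12, m13, m23, mT, mT', mC, mC', mD, Matrix.mul_apply, Fin.sum_univ_three,
        SpecialLinearGroup.transvection_coe, Matrix.single_apply]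
    rw [this]; exact cj hc (cj ht (hU _))
  · exact absurd rfl hij

end Gen

end Cfsg.Agent.Lib.Helper43P3
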