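import Cfsg.Agent.Lib.Helper43P3H

set_option autoImplicit false

namespace Cfsg.Agent.Lib.Helper43P3

open Cfsg.Agent.Lib.Helper43Pres Polynomial

section Rels

variable {G : Type*} [Group G]

/-- the third torus generator -/
def G2 (g c : G) : G := c * (c * g * c⁻¹) * c⁻¹

/-- the commutator relator number `i` -/
def comRel (u g t c : G) (i : ℕ) : G :=
  u * (c * (g ^ i * u * (g ^ i)⁻¹) * c⁻¹) * u⁻¹ * (c * (g ^ i * u * (g ^ i)⁻¹) * c⁻¹)⁻¹ *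
    (c * (c * (t * (g ^ i * u * (g ^ i)⁻¹)⁻¹ * t⁻¹) * c⁻¹) * c⁻¹)⁻¹

/-- the fourteen relators -/
def rels3 (p k c0 d0 e : ℕ) (Lm : List ℕ) (u g t c : G) : List G :=
  [u ^ p,
   u * (g * u * g⁻¹) * (g * u * g⁻¹ * u)⁻¹,
   g ^ k * u * (g ^ k)⁻¹ * (u ^ c0 * (g * u * g⁻¹) ^ d0)⁻¹,
   W u g Lm,
   (G2 g c)⁻¹ * u * (G2 g c) * (g ^ 2 * u * (g ^ 2)⁻¹)⁻¹,
   g * (c * g * c⁻¹) * ((c * g * c⁻¹) * g)⁻¹,
   g * (c * g * c⁻¹) * G2 g c,
   t * G2 g c * t⁻¹ * G2 g c,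
   u * t * u * t⁻¹ * u * t⁻¹,
   t * c * t⁻¹ * (G2 g c ^ e * c⁻¹)⁻¹,
   c * c * c,
   comRel u g t c 0, comRel u g t c 1, comRel u g t c 2]

theorem rels3_map {G' : Type*} [Group G'] (f : G →* G') (p k c0 d0 e : ℕ) (Lm : List ℕ)
    (u g t c : G) :
    (rels3 p k c0 d0 e Lm u g t c).map f = rels3 p k c0 d0 e Lm (f u) (f g) (f t) (f c) := by
  simp [rels3, map_W, G2, comRel]

end Rels

section Equiv

variable {F : Type*} [Field F] {Γ : Type*} [Group Γ]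

theorem conj_ext {φ : F → Γ} (hadd : ∀ x y, φ (x + y) = φ x * φ y) {g k : Γ} {a z : F}
    (hg : ∀ x, g * φ x * g⁻¹ = φ (a * x)) (hk : k * g = g * k) (hku : k * φ 1 * k⁻¹ = φ z)
    (hsurj : ∀ x, ∃ L, evL a L = x) (x : F) : k * φ x * k⁻¹ = φ (z * x) := by
  have hW : ∀ L, W (φ 1) g L = φ (evL a L) := by
    intro L; rw [W_phi hadd hg, mul_one]
  have key : ∀ L, k * W (φ 1) g L * k⁻¹ = φ (z * evL a L) := by
    intro L
    induction L with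
    | nil => simp [phi_zero hadd]
    | cons c L ih =>
      rw [W_cons, evL_cons, mul_add, hadd]
      have e1 : k * (φ 1 ^ c * (g * W (φ 1) g L * g⁻¹)) * k⁻¹
          = (k * φ 1 * k⁻¹) ^ c * (g * (k * W (φ 1) g L * k⁻¹) * g⁻¹) := by
        rw [conj_pow]
        calc k * (φ 1 ^ c * (g * W (φ 1) g L * g⁻¹)) * k⁻¹
            = k * φ 1 ^ c * k⁻¹ * ((k * g) * W (φ 1) g L * (k * g)⁻¹) := by group
          _ = _ := by rw [hk]; group
      rw [e1, ih, hg, hku, ← phi_nat hadd]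
      congr 2
      · ring
      · ring
  obtain ⟨L, rfl⟩ := hsurj x
  rw [← hW, key]

/-- the relators hold in a model -/
theorem rels3_of_S3 {p : ℕ} [Algebra (ZMod p) F] [CharP F p] {φ : F → Γ} {g t c : Γ} {ζ : F}
    {e k c0 d0 : ℕ} {Lm : List ℕ} (S : S3 φ g t c ζ e)
    (hk : ζ ^ k = (c0 : F) + (d0 : F) * ζ) (hLm : pL p Lm = minpoly (ZMod p) ζ) :
    ∀ r ∈ rels3 p k c0 d0 e Lm (φ 1) g t c, r = 1 := by
  have hgp : ∀ i : ℕ, g ^ i * φ 1 * (g ^ i)⁻¹ = φ (ζ ^ i) := by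
    intro i; rw [S.hg.pow i 1, mul_one]
  have hg1 : g * φ 1 * g⁻¹ = φ ζ := by rw [S.hg 1, mul_one]
  have hcom : ∀ i, i < 3 → comRel (φ 1) g t c i = 1 := by
    intro i hi
    unfold comRel
    rw [hgp]
    have := S.com i hi
    unfold x23 x13 at this
    rw [phi_neg S.add] at this
    rw [this, mul_inv_cancel]
  intro r hr
  simp only [rels3, List.mem_cons, List.not_mem_nil, or_false] at hr
  rcases hr with rfl | rfl | rfl | rfl | rfl | rfl | rfl | rfl | rfl | rfl | rfl | rfl | rfl | rfl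
  · rw [← phi_nat S.add, CharP.cast_eq_zero, zero_mul, phi_zero S.add]
  · rw [hg1, phi_comm S.add, mul_inv_cancel]
  · rw [hgp, hg1, hk, S.add, ← phi_nat S.add, ← phi_nat S.add, mul_one, mul_inv_cancel]
  · rw [W_phi S.add S.hg, evL_Lm hLm, zero_mul, phi_zero S.add]
  · rw [hgp]
    have := S.hu 1
    rw [inv_inv, mul_one] at this
    unfold G2
    rw [this, mul_inv_cancel]
  · rw [S.g01, mul_inv_cancel]
  · exact S.gprod
  · unfold G2; rw [S.tg2, inv_mul_cancel]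
  · rw [S.R0, mul_inv_cancel]
  · unfold G2; rw [S.tc, mul_inv_cancel]
  · exact S.c3
  · exact hcom 0 (by norm_num)
  · exact hcom 1 (by norm_num)
  · exact hcom 2 (by norm_num)

/-- the relators produce a model -/
theorem S3_of_rels3 {p : ℕ} [Fact p.Prime] [Finite F] [Algebra (ZMod p) F] {u g t c : Γ} {ζ : F}
    {e k c0 d0 : ℕ} {Lm : List ℕ} (hζ : ζ ≠ 0) (he : ζ ^ e = -1)
    (ha : Algebra.adjoin (ZMod p) {ζ} = ⊤) (hLm : pL p Lm = minpoly (ZMod p) ζ)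
    (hrel : ∀ r ∈ rels3 p k c0 d0 e Lm u g t c, r = 1)
    (rC : ∀ j : ℕ, Commute u (g ^ j * u * (g ^ j)⁻¹)) :
    ∃ φ : F → Γ, φ 1 = u ∧ S3 φ g t c ζ e := by
  simp only [rels3, List.mem_cons, List.not_mem_nil, or_false, forall_eq_or_imp, forall_eq]
    at hrel
  obtain ⟨r1, -, -, r4, r5, r6, r7, r8, r9, r10, r11, r12, r13, r14⟩ := hrel
  rw [mul_inv_eq_one] at r5 r6 r9 r10
  unfold G2 at r5 r7 r8 r10
  obtain ⟨ψ, h1, h2, h3, h4⟩ := exists_psi p u g r1 rC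
  have hm : ψ (minpoly (ZMod p) ζ) = 1 := by rw [← hLm, psi_pL p h1 h2 h3, r4]
  obtain ⟨φ, a1, a2, a3⟩ := exists_phi p ζ ha h1 h2 h3 h4 hm
  have hsurj : ∀ x : F, ∃ L, evL ζ L = x := by
    intro x
    have : x ∈ Algebra.adjoin (ZMod p) {ζ} := by rw [ha]; trivial
    rw [Algebra.adjoin_singleton_eq_range_aeval] at this
    obtain ⟨f, hf⟩ := this
    obtain ⟨L, rfl⟩ := exists_pL p f
    exact ⟨L, by rw [← aeval_pL p]; exact hf⟩
  have hg : Maps g φ φ ζ := a3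
  have hgp : ∀ i : ℕ, g ^ i * u * (g ^ i)⁻¹ = φ (ζ ^ i) := by
    intro i; rw [← a2, hg.pow i 1, mul_one]
  -- g2 commutes with g
  have cg2 : c * (c * (c * g * c⁻¹) * c⁻¹) * c⁻¹ = g := by
    have e1 : c * (c * (c * g * c⁻¹) * c⁻¹) * c⁻¹ = (c * c * c) * g * (c * c * c)⁻¹ := by group
    rw [e1, r11]; simp
  have g12 : (c * g * c⁻¹) * (c * (c * g * c⁻¹) * c⁻¹) = (c * (c * g * c⁻¹) * c⁻¹) * (c * g * c⁻¹) := by
    have := congrArg (fun x => c * x * c⁻¹) r6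
    calc (c * g * c⁻¹) * (c * (c * g * c⁻¹) * c⁻¹) = c * (g * (c * g * c⁻¹)) * c⁻¹ := by group
      _ = c * ((c * g * c⁻¹) * g) * c⁻¹ := this
      _ = _ := by group
  have g20 : (c * (c * g * c⁻¹) * c⁻¹) * g = g * (c * (c * g * c⁻¹) * c⁻¹) := by
    have := congrArg (fun x => c * x * c⁻¹) g12
    calc (c * (c * g * c⁻¹) * c⁻¹) * g
        = (c * (c * g * c⁻¹) * c⁻¹) * (c * (c * (c * g * c⁻¹) * c⁻¹) * c⁻¹) := by rw [cg2]
      _ = c * ((c * g * c⁻¹) * (c * (c * g * c⁻¹) * c⁻¹)) * c⁻¹ := by group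
      _ = c * ((c * (c * g * c⁻¹) * c⁻¹) * (c * g * c⁻¹)) * c⁻¹ := this
      _ = (c * (c * (c * g * c⁻¹) * c⁻¹) * c⁻¹) * (c * (c * g * c⁻¹) * c⁻¹) := by group
      _ = _ := by rw [cg2]
  have hu : Maps (c * (c * g * c⁻¹) * c⁻¹)⁻¹ φ φ (ζ ^ 2) := by
    intro x
    refine conj_ext a1 a3 ?_ ?_ hsurj x
    · exact ((show Commute (c * (c * g * c⁻¹) * c⁻¹) g from g20).inv_left).eq
    · rw [inv_inv, a2, r5, hgp]
  have hcom : ∀ i, comRel u g t c i = 1 →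
      φ 1 * x23 φ c (ζ ^ i) * (φ 1)⁻¹ * (x23 φ c (ζ ^ i))⁻¹ = x13 φ t c (ζ ^ i) := by
    intro i h
    unfold comRel at h
    rw [mul_inv_eq_one, hgp, ← phi_neg a1] at h
    unfold x23 x13
    rw [a2]; exact h
  refine ⟨φ, a2, ⟨a1, hg, hζ, he, r11, r6, r7, hu, eq_inv_of_mul_eq_one_left r8, ?_, r10, ?_⟩⟩
  · rw [a2]; exact r9
  · intro i hi
    interval_cases i
    · exact hcom 0 r12
    · exact hcom 1 r13
    · exact hcom 2 r14

end Equiv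

end Cfsg.Agent.Lib.Helper43P3
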