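import Cfsg.Agent.Lib.Helper43P3D

set_option autoImplicit false

namespace Cfsg.Agent.Lib.Helper43P4

open Cfsg.Agent.Lib.Helper43Pres Cfsg.Agent.Lib.Helper43P3

variable {F : Type*} [Field F] {Γ : Type*} [Group Γ]

/-- extension of a conjugation formula from the parameter `1` to all parameters -/
theorem maps_ext_one {φ φ' : F → Γ} (hadd : ∀ x y, φ (x + y) = φ x * φ y)
    (hadd' : ∀ x y, φ' (x + y) = φ' x * φ' y) {g g'' k : Γ} {a z : F}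
    (hg : Maps g φ φ a) (hg' : Maps g'' φ' φ' a) (hk : k * g = g'' * k)
    (hku : k * φ 1 * k⁻¹ = φ' z) (hsurj : ∀ x, ∃ L, evL a L = x) : Maps k φ φ' z := by
  have hW : ∀ L, W (φ 1) g L = φ (evL a L) := by
    intro L; rw [W_phi hadd hg, mul_one]
  have key : ∀ L, k * W (φ 1) g L * k⁻¹ = φ' (z * evL a L) := by
    intro L
    induction L with
    | nil => simp [phi_zero hadd']
    | cons c L ih =>
      rw [W_cons, evL_cons, mul_add, hadd']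
      have e1 : k * (φ 1 ^ c * (g * W (φ 1) g L * g⁻¹)) * k⁻¹
          = (k * φ 1 * k⁻¹) ^ c * (g'' * (k * W (φ 1) g L * k⁻¹) * g''⁻¹) := by
        rw [conj_pow]
        calc k * (φ 1 ^ c * (g * W (φ 1) g L * g⁻¹)) * k⁻¹
            = k * φ 1 ^ c * k⁻¹ * ((k * g) * W (φ 1) g L * (k * g)⁻¹) := by group
          _ = _ := by rw [hk]; group
      rw [e1, ih, hg', hku, ← phi_nat hadd']
      congr 2
      · ring
      · ring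
  intro x
  obtain ⟨L, rfl⟩ := hsurj x
  rw [← hW, key]

theorem mv_transport {w k : Γ} {x x' : F → Γ} (hk : Mv k x x) (hw : Mv w x x') :
    Mv (w * k * w⁻¹) x' x' := (hw.comp hk).comp hw.inv

theorem mv_one (x : F → Γ) : Mv (1 : Γ) x x := (Maps.one x).mv one_ne_zero

theorem pow_conj_mem (K : Subgroup Γ) {c : Γ} (h : ∀ η ∈ K, c * η * c⁻¹ ∈ K) (i : ℕ) {η : Γ}
    (hη : η ∈ K) : c ^ i * η * (c ^ i)⁻¹ ∈ K := by
  induction i with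
  | zero => simpa using hη
  | succ i ih =>
    have : c ^ (i + 1) * η * (c ^ (i + 1))⁻¹ = c * (c ^ i * η * (c ^ i)⁻¹) * c⁻¹ := by
      rw [pow_succ']; group
    rw [this]; exact h _ ih

section Roots

variable (φ ψ : F → Γ) (t s : Γ)

def Y1 (a : F) : Γ := (s * t * s⁻¹) * ψ a * (s * t * s⁻¹)⁻¹
def Y2 (a : F) : Γ := s * φ a * s⁻¹
def Y3 (a : F) : Γ := s * ψ a * s⁻¹
def Y4 (a : F) : Γ := t * φ a * t⁻¹
def Y5 (a : F) : Γ := t * ψ a * t⁻¹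
def Y6 (a : F) : Γ := s * (t * φ a * t⁻¹) * s⁻¹

/-- the eight root maps, indexed by the angle -/
def XX : Fin 8 → F → Γ := ![φ, Y1 ψ t s, Y2 φ s, Y3 ψ s, Y4 φ t, Y5 ψ t, Y6 φ t s, ψ]

end Roots

/-- the base data in the abstract group -/
structure S4 (φ ψ : F → Γ) (g t s : Γ) (ζ : F) (e : ℕ) : Prop where
  addφ : ∀ x y, φ (x + y) = φ x * φ y
  addψ : ∀ x y, ψ (x + y) = ψ x * ψ y
  ζ_ne : ζ ≠ 0
  he : ζ ^ e = -1
  ss : s * s = 1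
  gφ : Maps g φ φ (ζ ^ 2)
  gψ : Maps g ψ ψ ζ
  tg : t * g * t⁻¹ = g⁻¹
  R0 : RR φ g t ζ 0
  R1 : RR φ g t ζ 1
  gg : g * (s * g * s⁻¹) = (s * g * s⁻¹) * g
  tg1 : t * (s * g * s⁻¹) = (s * g * s⁻¹) * t
  tt1 : t * (s * t * s⁻¹) = (s * t * s⁻¹) * t
  g1φ : Maps (s * g * s⁻¹) φ φ 1
  t1φ : Maps (s * t * s⁻¹) φ φ 1
  φφ : ∀ a b, φ a * Y2 φ s b = Y2 φ s b * φ a
  g1ψ : Maps (s * g * s⁻¹) ψ ψ ζ⁻¹
  st : ψ 1 * s = Y3 ψ s 1 * (s * g * s⁻¹) ^ e * ψ 1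
  stab : Maps (s * t * (s * t * s⁻¹)) ψ ψ (-1)
  C1 : ∀ i : ℕ, i < 2 → ψ 1 * Y2 φ s (ζ ^ i) * (ψ 1)⁻¹ * (Y2 φ s (ζ ^ i))⁻¹
    = φ (ζ ^ i) * Y1 ψ t s (-(ζ ^ i))
  C2 : ∀ i : ℕ, i < 2 → ψ 1 * Y1 ψ t s (ζ ^ i) * (ψ 1)⁻¹ * (Y1 ψ t s (ζ ^ i))⁻¹
    = φ (-(2 * ζ ^ i))
  C3 : ∀ i : ℕ, i < 2 → ψ 1 * φ (ζ ^ i) = φ (ζ ^ i) * ψ 1

namespace S4

variable {φ ψ : F → Γ} {g t s : Γ} {ζ : F} {e : ℕ}

local notation "g1" => (s * g * s⁻¹)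
local notation "t1" => (s * t * s⁻¹)
local notation "X1" => Y1 ψ t s
local notation "X2" => Y2 φ s
local notation "X3" => Y3 ψ s
local notation "X4" => Y4 φ t
local notation "X5" => Y5 ψ t
local notation "X6" => Y6 φ t s

theorem sinv (S : S4 φ ψ g t s ζ e) : s⁻¹ = s := inv_eq_of_mul_eq_one_left S.ss

theorem s_conj_conj (S : S4 φ ψ g t s ζ e) (x : Γ) : s * (s * x * s⁻¹) * s⁻¹ = x := by
  have : s * (s * x * s⁻¹) * s⁻¹ = (s * s) * x * (s * s)⁻¹ := by group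
  rw [this, S.ss]; simp

theorem sg1 (S : S4 φ ψ g t s ζ e) : s * g1 * s⁻¹ = g := S.s_conj_conj g
theorem st1 (S : S4 φ ψ g t s ζ e) : s * t1 * s⁻¹ = t := S.s_conj_conj t

theorem t1g (S : S4 φ ψ g t s ζ e) : t1 * g = g * t1 := by
  have := congrArg (fun x => s * x * s⁻¹) S.tg1
  calc t1 * g = t1 * (s * g1 * s⁻¹) := by rw [S.sg1]
    _ = s * (t * g1) * s⁻¹ := by group
    _ = s * (g1 * t) * s⁻¹ := this
    _ = (s * g1 * s⁻¹) * t1 := by group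
    _ = _ := by rw [S.sg1]

theorem t1g1 (S : S4 φ ψ g t s ζ e) : t1 * g1 * t1⁻¹ = g1⁻¹ := by
  have : t1 * g1 * t1⁻¹ = s * (t * g * t⁻¹) * s⁻¹ := by group
  rw [this, S.tg]; group

theorem pre0 (S : S4 φ ψ g t s ζ e) : Pre0 φ g t (ζ ^ 2) where
  add := S.addφ
  conj := S.gφ
  z_ne := pow_ne_zero _ S.ζ_ne
  inv := S.tg

theorem RRall (S : S4 φ ψ g t s ζ e) (j : ℕ) : RR φ g t ζ j := RR_all S.pre0 S.R0 S.R1 j

theorem tt (S : S4 φ ψ g t s ζ e) : t * t = (g ^ e)⁻¹ := by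
  have h1 := tinv_of_RR S.addφ S.he S.R0 (S.RRall e)
  have h2 : g ^ e * (t * t) = 1 := by
    rw [← mul_assoc, ← h1]; group
  exact eq_inv_of_mul_eq_one_right h2

theorem t1t1 (S : S4 φ ψ g t s ζ e) : t1 * t1 = (g1 ^ e)⁻¹ := by
  have : t1 * t1 = s * (t * t) * s⁻¹ := by group
  rw [this, S.tt, conj_pow]; group

/-! additivity -/
theorem add1 (S : S4 φ ψ g t s ζ e) (a b : F) : X1 (a + b) = X1 a * X1 b := add_conj S.addψ _ a b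
theorem add2 (S : S4 φ ψ g t s ζ e) (a b : F) : X2 (a + b) = X2 a * X2 b := add_conj S.addφ _ a b
theorem add3 (S : S4 φ ψ g t s ζ e) (a b : F) : X3 (a + b) = X3 a * X3 b := add_conj S.addψ _ a b
theorem add4 (S : S4 φ ψ g t s ζ e) (a b : F) : X4 (a + b) = X4 a * X4 b := add_conj S.addφ _ a b

/-! definitional actions -/
theorem s_0 (_S : S4 φ ψ g t s ζ e) : Maps s φ X2 1 := by intro a; simp [Y2]
theorem s_7 (_S : S4 φ ψ g t s ζ e) : Maps s ψ X3 1 := by intro a; simp [Y3]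
theorem s_4 (_S : S4 φ ψ g t s ζ e) : Maps s X4 X6 1 := by intro a; simp [Y4, Y6]
theorem s_2 (S : S4 φ ψ g t s ζ e) : Maps s X2 φ 1 := by
  intro a; rw [one_mul]; exact S.s_conj_conj _
theorem s_3 (S : S4 φ ψ g t s ζ e) : Maps s X3 ψ 1 := by
  intro a; rw [one_mul]; exact S.s_conj_conj _
theorem s_6 (S : S4 φ ψ g t s ζ e) : Maps s X6 X4 1 := by
  intro a; rw [one_mul]; exact S.s_conj_conj _
theorem t_0 (_S : S4 φ ψ g t s ζ e) : Maps t φ X4 1 := by intro a; simp [Y4]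
theorem t_7 (_S : S4 φ ψ g t s ζ e) : Maps t ψ X5 1 := by intro a; simp [Y5]
theorem t1_7 (_S : S4 φ ψ g t s ζ e) : Maps t1 ψ X1 1 := by intro a; simp [Y1]

theorem o : (1 : F) ≠ 0 := one_ne_zero

/-! exact torus table on the positive roots -/
theorem g_0 (S : S4 φ ψ g t s ζ e) : Maps g φ φ (ζ ^ 2) := S.gφ
theorem g_7 (S : S4 φ ψ g t s ζ e) : Maps g ψ ψ ζ := S.gψ
theorem g_2 (S : S4 φ ψ g t s ζ e) : Maps g X2 X2 1 :=
  (S.g1φ.transport S.s_0 o).congr S.sg1 rfl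
theorem g_1 (S : S4 φ ψ g t s ζ e) : Maps g X1 X1 ζ := by
  refine (S.gψ.transport S.t1_7 o).congr ?_ rfl
  rw [S.t1g]; group
theorem g1_0 (S : S4 φ ψ g t s ζ e) : Maps g1 φ φ 1 := S.g1φ
theorem g1_7 (S : S4 φ ψ g t s ζ e) : Maps g1 ψ ψ ζ⁻¹ := S.g1ψ
theorem g1_2 (S : S4 φ ψ g t s ζ e) : Maps g1 X2 X2 (ζ ^ 2) := S.gφ.transport S.s_0 o
theorem g1_1 (S : S4 φ ψ g t s ζ e) : Maps g1 X1 X1 ζ := by
  have h := (S.g1ψ.inv (inv_ne_zero S.ζ_ne)).transport S.t1_7 o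
  refine h.congr ?_ (inv_inv _)
  have : t1 * g1⁻¹ * t1⁻¹ = (t1 * g1 * t1⁻¹)⁻¹ := by group
  rw [this, S.t1g1, inv_inv]

/-! torus on the negative roots -/
theorem g_3 (S : S4 φ ψ g t s ζ e) : Maps g X3 X3 ζ⁻¹ :=
  (S.g1ψ.transport S.s_7 o).congr S.sg1 rfl
theorem g_4 (S : S4 φ ψ g t s ζ e) : Maps g X4 X4 (ζ ^ 2)⁻¹ := by
  refine ((S.gφ.inv (pow_ne_zero _ S.ζ_ne)).transport S.t_0 o).congr ?_ rfl
  have : t * g⁻¹ * t⁻¹ = (t * g * t⁻¹)⁻¹ := by group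
  rw [this, S.tg, inv_inv]
theorem g_5 (S : S4 φ ψ g t s ζ e) : Maps g X5 X5 ζ⁻¹ := by
  refine ((S.gψ.inv S.ζ_ne).transport S.t_7 o).congr ?_ rfl
  have : t * g⁻¹ * t⁻¹ = (t * g * t⁻¹)⁻¹ := by group
  rw [this, S.tg, inv_inv]
theorem g1_4 (S : S4 φ ψ g t s ζ e) : Maps g1 X4 X4 1 := by
  refine (S.g1φ.transport S.t_0 o).congr ?_ rfl
  rw [S.tg1]; group
theorem g_6 (S : S4 φ ψ g t s ζ e) : Maps g X6 X6 1 :=
  (S.g1_4.transport S.s_4 o).congr S.sg1 rfl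
theorem g1_3 (S : S4 φ ψ g t s ζ e) : Maps g1 X3 X3 ζ := S.gψ.transport S.s_7 o
theorem g1_6 (S : S4 φ ψ g t s ζ e) : Maps g1 X6 X6 (ζ ^ 2)⁻¹ := S.g_4.transport S.s_4 o
theorem g1_5 (S : S4 φ ψ g t s ζ e) : Maps g1 X5 X5 ζ⁻¹ := by
  refine (S.g1ψ.transport S.t_7 o).congr ?_ rfl
  rw [S.tg1]; group

end S4

end Cfsg.Agent.Lib.Helper43P4
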