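import Cfsg.Agent.Lib.Helper43P4A

set_option autoImplicit false
set_option linter.unusedSectionVars false

namespace Cfsg.Agent.Lib.Helper43P4

open Cfsg.Agent.Lib.Helper43Pres Cfsg.Agent.Lib.Helper43P3

variable {F : Type*} [Field F] {Γ : Type*} [Group Γ]

namespace S4

variable {φ ψ : F → Γ} {g t s : Γ} {ζ : F} {e : ℕ}

local notation "g1" => (s * g * s⁻¹)
local notation "t1" => (s * t * s⁻¹)
local notation "X1" => Y1 ψ t s
local notation "X2" => Y2 φ s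
local notation "X3" => Y3 ψ s
local notation "X4" => Y4 φ t
local notation "X5" => Y5 ψ t
local notation "X6" => Y6 φ t s

theorem zi (S : S4 φ ψ g t s ζ e) : ζ⁻¹ ≠ 0 := inv_ne_zero S.ζ_ne
theorem z2 (S : S4 φ ψ g t s ζ e) : ζ ^ 2 ≠ 0 := pow_ne_zero _ S.ζ_ne
theorem z2i (S : S4 φ ψ g t s ζ e) : (ζ ^ 2)⁻¹ ≠ 0 := inv_ne_zero S.z2

/-- `t t` acts diagonally wherever `g` does -/
theorem tt_mv {x : F → Γ} (S : S4 φ ψ g t s ζ e) (h : Mv g x x) : Mv (t * t) x x :=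
  ((h.pow e).inv).congr S.tt.symm
theorem t1t1_mv {x : F → Γ} (S : S4 φ ψ g t s ζ e) (h : Mv g1 x x) : Mv (t1 * t1) x x :=
  ((h.pow e).inv).congr S.t1t1.symm

theorem K_eq (S : S4 φ ψ g t s ζ e) : s * t * t1 = t1 * t * s := by
  have h : s⁻¹ = s := S.sinv
  calc s * t * t1 = (s * t * s⁻¹) * (s * s) * t * s⁻¹ := by group
    _ = _ := by rw [S.ss, h]; group

theorem ne1 : (-1 : F) ≠ 0 := neg_ne_zero.mpr one_ne_zero

theorem K_mv (S : S4 φ ψ g t s ζ e) : Mv (s * t * t1) ψ ψ := S.stab.mv ne1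

/-- `t1⁻¹ t s` fixes the root `e1 - e2` -/
theorem m1 (S : S4 φ ψ g t s ζ e) : Mv (t1⁻¹ * t * s) ψ ψ := by
  refine ((S.t1t1_mv (S.g1_7.mv S.zi)).inv.comp S.K_mv).congr ?_
  rw [S.K_eq]; group

theorem m2 (S : S4 φ ψ g t s ζ e) : Mv (t⁻¹ * s * t) ψ ψ := by
  refine ((S.tt_mv (S.g_7.mv S.ζ_ne)).inv.comp S.K_mv).congr ?_
  rw [S.K_eq, ← S.tt1]
  have h : s⁻¹ = s := S.sinv
  calc (t * t)⁻¹ * (t * t1 * s) = t⁻¹ * s * t * (s⁻¹ * s) := by group
    _ = _ := by group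

theorem ts_eq (S : S4 φ ψ g t s ζ e) : t * s = s * t1 := by
  calc t * s = (s * s) * t * s := by rw [S.ss]; group
    _ = s * (s * t * s) := by group
    _ = _ := by conv_rhs => rw [S.sinv]

theorem s_1 (S : S4 φ ψ g t s ζ e) : Mv s X1 X1 := by
  refine (mv_transport S.m1 (S.t1_7.mv o)).congr ?_
  calc t1 * (t1⁻¹ * t * s) * t1⁻¹ = (t * s) * t1⁻¹ := by group
    _ = _ := by rw [S.ts_eq]; group

theorem s_5 (S : S4 φ ψ g t s ζ e) : Mv s X5 X5 := by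
  refine (mv_transport S.m2 (S.t_7.mv o)).congr ?_
  group

theorem t_1 (S : S4 φ ψ g t s ζ e) : Mv t X1 X3 := by
  refine (((S.s_7.mv o).comp S.K_mv).comp (S.t1_7.mv o).inv).congr ?_
  calc s * (s * t * t1) * t1⁻¹ = (s * s) * t := by group
    _ = _ := by rw [S.ss, one_mul]

theorem t_3 (S : S4 φ ψ g t s ζ e) : Mv t X3 X1 := by
  refine (((S.t1_7.mv o).comp S.m1).comp (S.s_7.mv o).inv).congr ?_
  group

theorem t_2 (S : S4 φ ψ g t s ζ e) : Maps t X2 X2 1 :=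
  (S.t1φ.transport S.s_0 o).congr S.st1 rfl

theorem t_4 (S : S4 φ ψ g t s ζ e) : Mv t X4 φ :=
  ((S.tt_mv (S.g_0.mv S.z2)).comp (S.t_0.mv o).inv).congr (by group)

theorem t_5 (S : S4 φ ψ g t s ζ e) : Mv t X5 ψ :=
  ((S.tt_mv (S.g_7.mv S.ζ_ne)).comp (S.t_7.mv o).inv).congr (by group)

theorem t1_4 (S : S4 φ ψ g t s ζ e) : Maps t1 X4 X4 1 := by
  refine (S.t1φ.transport S.t_0 o).congr ?_ rfl
  rw [S.tt1]; group

theorem t_6 (S : S4 φ ψ g t s ζ e) : Maps t X6 X6 1 :=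
  (S.t1_4.transport S.s_4 o).congr S.st1 rfl

/-- the action of `s` on the roots -/
theorem act_s (S : S4 φ ψ g t s ζ e) (k : Fin 8) : Mv s (XX φ ψ t s k) (XX φ ψ t s (2 - k)) := by
  fin_cases k
  · exact S.s_0.mv o
  · exact S.s_1
  · exact S.s_2.mv o
  · exact S.s_3.mv o
  · exact S.s_4.mv o
  · exact S.s_5
  · exact S.s_6.mv o
  · exact S.s_7.mv o

theorem act_t (S : S4 φ ψ g t s ζ e) (k : Fin 8) : Mv t (XX φ ψ t s k) (XX φ ψ t s (4 - k)) := by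
  fin_cases k
  · exact S.t_0.mv o
  · exact S.t_1
  · exact S.t_2.mv o
  · exact S.t_3
  · exact S.t_4
  · exact S.t_5
  · exact S.t_6.mv o
  · exact S.t_7.mv o

theorem act_g (S : S4 φ ψ g t s ζ e) (k : Fin 8) : Mv g (XX φ ψ t s k) (XX φ ψ t s k) := by
  fin_cases k
  · exact S.g_0.mv S.z2
  · exact S.g_1.mv S.ζ_ne
  · exact S.g_2.mv o
  · exact S.g_3.mv S.zi
  · exact S.g_4.mv S.z2i
  · exact S.g_5.mv S.zi
  · exact S.g_6.mv o
  · exact S.g_7.mv S.ζ_ne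

theorem act_g1 (S : S4 φ ψ g t s ζ e) (k : Fin 8) : Mv g1 (XX φ ψ t s k) (XX φ ψ t s k) := by
  fin_cases k
  · exact S.g1_0.mv o
  · exact S.g1_1.mv S.ζ_ne
  · exact S.g1_2.mv S.z2
  · exact S.g1_3.mv S.ζ_ne
  · exact S.g1_4.mv o
  · exact S.g1_5.mv S.zi
  · exact S.g1_6.mv S.z2i
  · exact S.g1_7.mv S.zi

end S4

/-- the torus -/
def HH (g s : Γ) : Subgroup Γ := Subgroup.closure {g, s * g * s⁻¹}

/-- the unipotent subgroup -/
def UU (φ ψ : F → Γ) (t s : Γ) : Subgroup Γ :=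
  Subgroup.closure (Set.range ψ ∪ Set.range (Y2 φ s) ∪ Set.range (Y1 ψ t s) ∪ Set.range φ)

/-- Weyl representatives -/
def WW (t s : Γ) : Set Γ := {w | ∃ i : ℕ, w = (s * t) ^ i ∨ w = (s * t) ^ i * s}

/-- positive roots -/
def Pos (k : Fin 8) : Prop := k = 7 ∨ k = 0 ∨ k = 1 ∨ k = 2

instance : DecidablePred Pos := fun k => by unfold Pos; infer_instance

namespace S4

variable {φ ψ : F → Γ} {g t s : Γ} {ζ : F} {e : ℕ}

local notation "g1" => (s * g * s⁻¹)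
local notation "t1" => (s * t * s⁻¹)
local notation "X1" => Y1 ψ t s
local notation "X2" => Y2 φ s
local notation "X3" => Y3 ψ s
local notation "X4" => Y4 φ t
local notation "X5" => Y5 ψ t
local notation "X6" => Y6 φ t s

theorem mem7 (a : F) : ψ a ∈ UU φ ψ t s :=
  Subgroup.subset_closure (Or.inl (Or.inl (Or.inl ⟨a, rfl⟩)))
theorem mem2 (a : F) : X2 a ∈ UU φ ψ t s :=
  Subgroup.subset_closure (Or.inl (Or.inl (Or.inr ⟨a, rfl⟩)))
theorem mem1 (a : F) : X1 a ∈ UU φ ψ t s :=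
  Subgroup.subset_closure (Or.inl (Or.inr ⟨a, rfl⟩))
theorem mem0 (a : F) : φ a ∈ UU φ ψ t s :=
  Subgroup.subset_closure (Or.inr ⟨a, rfl⟩)

theorem memPos {k : Fin 8} (hk : Pos k) (a : F) : XX φ ψ t s k a ∈ UU φ ψ t s := by
  rcases hk with rfl | rfl | rfl | rfl
  · exact mem7 a
  · exact mem0 a
  · exact mem1 a
  · exact mem2 a

theorem g_mem : g ∈ HH g s := Subgroup.subset_closure (by simp)
theorem g1_mem : g1 ∈ HH g s := Subgroup.subset_closure (by simp)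

theorem tor_of_mem (S : S4 φ ψ g t s ζ e) {k : Γ} (hk : k ∈ HH g s) (i : Fin 8) :
    Mv k (XX φ ψ t s i) (XX φ ψ t s i) := by
  induction hk using Subgroup.closure_induction with
  | mem x hx =>
    rcases hx with rfl | rfl
    · exact S.act_g i
    · exact S.act_g1 i
  | one => exact mv_one _
  | mul x y _ _ ihx ihy => exact ihx.comp ihy
  | inv x _ ih => exact ih.inv

theorem HU (S : S4 φ ψ g t s ζ e) :
    ∀ η ∈ HH g s, ∀ y ∈ UU φ ψ t s, η * y * η⁻¹ ∈ UU φ ψ t s := by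
  intro η hη y hy
  have T := S.tor_of_mem hη
  refine conj_mem_closure ?_ hy
  rintro x (((⟨a, rfl⟩ | ⟨a, rfl⟩) | ⟨a, rfl⟩) | ⟨a, rfl⟩)
  · obtain ⟨a', h⟩ := (T 7).ex a; exact h ▸ mem7 a'
  · obtain ⟨a', h⟩ := (T 2).ex a; exact h ▸ mem2 a'
  · obtain ⟨a', h⟩ := (T 1).ex a; exact h ▸ mem1 a'
  · obtain ⟨a', h⟩ := (T 0).ex a; exact h ▸ mem0 a'

theorem sH (S : S4 φ ψ g t s ζ e) {η : Γ} (hη : η ∈ HH g s) : s * η * s⁻¹ ∈ HH g s := by
  refine conj_mem_closure ?_ hη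
  intro x hx
  rcases hx with hx | hx
  · rw [hx]; exact g1_mem
  · rw [Set.mem_singleton_iff] at hx; rw [hx, S.sg1]; exact g_mem

theorem tH (S : S4 φ ψ g t s ζ e) {η : Γ} (hη : η ∈ HH g s) : t * η * t⁻¹ ∈ HH g s := by
  refine conj_mem_closure ?_ hη
  intro x hx
  rcases hx with hx | hx
  · rw [hx, S.tg]; exact (HH g s).inv_mem g_mem
  · rw [Set.mem_singleton_iff] at hx
    rw [hx, S.tg1]
    have : g1 * t * t⁻¹ = g1 := by group
    rw [this]; exact g1_mem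

theorem cH (S : S4 φ ψ g t s ζ e) {η : Γ} (hη : η ∈ HH g s) :
    (s * t) * η * (s * t)⁻¹ ∈ HH g s := by
  have : (s * t) * η * (s * t)⁻¹ = s * (t * η * t⁻¹) * s⁻¹ := by group
  rw [this]; exact S.sH (S.tH hη)

theorem cpowH (S : S4 φ ψ g t s ζ e) (i : ℕ) {η : Γ} (hη : η ∈ HH g s) :
    (s * t) ^ i * η * ((s * t) ^ i)⁻¹ ∈ HH g s :=
  pow_conj_mem _ (fun _ h => S.cH h) i hη

theorem bn (S : S4 φ ψ g t s ζ e) : BN (UU φ ψ t s) (HH g s) (WW t s) where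
  HU := S.HU
  WH := by
    rintro w ⟨i, rfl | rfl⟩ η hη
    · exact S.cpowH i hη
    · have : (s * t) ^ i * s * η * ((s * t) ^ i * s)⁻¹
          = (s * t) ^ i * (s * η * s⁻¹) * ((s * t) ^ i)⁻¹ := by group
      rw [this]; exact S.cpowH i (S.sH hη)
  one_mem := ⟨0, Or.inl (by simp)⟩

/-- every Weyl representative permutes the root maps, compatibly with negation -/
theorem act_W (S : S4 φ ψ g t s ζ e) {w : Γ} (hw : w ∈ WW t s) :
    ∃ σ : Fin 8 → Fin 8, (∀ k, Mv w (XX φ ψ t s k) (XX φ ψ t s (σ k))) ∧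
      ∀ k, σ (k + 4) = σ k + 4 := by
  have hc : ∀ i : ℕ, ∃ σ : Fin 8 → Fin 8,
      (∀ k, Mv ((s * t) ^ i) (XX φ ψ t s k) (XX φ ψ t s (σ k))) ∧ ∀ k, σ (k + 4) = σ k + 4 := by
    intro i
    induction i with
    | zero => exact ⟨id, fun k => (mv_one _).congr (by simp), fun k => rfl⟩
    | succ i ih =>
      obtain ⟨σ, h1, h2⟩ := ih
      refine ⟨fun k => 2 - (4 - σ k), fun k => ?_, fun k => ?_⟩
      · exact (((S.act_s _).comp (S.act_t _)).comp (h1 k)).congr (by rw [pow_succ'])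
      · show 2 - (4 - σ (k + 4)) = 2 - (4 - σ k) + 4
        rw [h2]
        generalize σ k = m
        revert m; decide
  obtain ⟨i, rfl | rfl⟩ := hw
  · exact hc i
  · obtain ⟨σ, h1, h2⟩ := hc i
    refine ⟨fun k => σ (2 - k), fun k => (h1 _).comp (S.act_s k), fun k => ?_⟩
    show σ (2 - (k + 4)) = σ (2 - k) + 4
    rw [← h2]
    congr 1
    revert k; decide

theorem pos_or (m : Fin 8) : Pos m ∨ Pos (m + 4) := by
  revert m; decide

theorem memU_of_Mv {w : Γ} {x x' : F → Γ} (h : Mv w x x') (hx' : ∀ a, x' a ∈ UU φ ψ t s) (a : F) :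
    w * x a * w⁻¹ ∈ UU φ ψ t s := by
  obtain ⟨a', h⟩ := h.ex a
  rw [h]; exact hx' _

/-- the dichotomy for a root and its negative -/
theorem d3 (S : S4 φ ψ g t s ζ e) (k : Fin 8) : ∀ w ∈ WW t s,
    (∀ a, w * XX φ ψ t s k a * w⁻¹ ∈ UU φ ψ t s) ∨
      (∀ a, w * XX φ ψ t s (k + 4) a * w⁻¹ ∈ UU φ ψ t s) := by
  intro w hw
  obtain ⟨σ, h1, h2⟩ := S.act_W hw
  rcases pos_or (σ k) with h | h
  · left; exact memU_of_Mv (h1 k) (memPos h)
  · right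
    rw [← h2] at h
    exact memU_of_Mv (h1 (k + 4)) (memPos h)

end S4

end Cfsg.Agent.Lib.Helper43P4
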