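import Cfsg.Agent.Lib.Helper43P4B

set_option autoImplicit false
set_option linter.unusedSectionVars false

namespace Cfsg.Agent.Lib.Helper43P4

open Cfsg.Agent.Lib.Helper43Pres Cfsg.Agent.Lib.Helper43P3

variable {F : Type*} [Field F] {Γ : Type*} [Group Γ]

/-- covering all pairs of parameters by torus orbits -/
theorem cover {P : F → F → Prop} {ζ w : F} (hw : w ≠ 0)
    (hgen : ∀ b : F, b ≠ 0 → ∃ j : ℕ, ζ ^ j = b)
    (h0a : ∀ b, P 0 b) (h0b : ∀ a, P a 0) (base : ∀ i : ℕ, i < 2 → P 1 (ζ ^ i))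
    (step1 : ∀ a b, P a b → P a (ζ ^ 2 * b)) (step2 : ∀ a b, P a b → P (ζ * a) (w * b))
    (a b : F) : P a b := by
  by_cases ha : a = 0
  · subst ha; exact h0a b
  by_cases hb : b = 0
  · subst hb; exact h0b a
  obtain ⟨n, rfl⟩ := hgen a ha
  obtain ⟨m, hm⟩ := hgen (b / w ^ n) (div_ne_zero hb (pow_ne_zero _ hw))
  have hb' : b = w ^ n * ζ ^ m := by rw [hm]; field_simp
  have s1 : ∀ (i r : ℕ), i < 2 → P 1 (ζ ^ (i + 2 * r)) := by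
    intro i r hi
    induction r with
    | zero => simpa using base i hi
    | succ r ih =>
      have e1 : ζ ^ (i + 2 * (r + 1)) = ζ ^ 2 * ζ ^ (i + 2 * r) := by ring
      rw [e1]; exact step1 _ _ ih
  have s2 : ∀ (n : ℕ) (c : F), P 1 c → P (ζ ^ n) (w ^ n * c) := by
    intro n c h
    induction n with
    | zero => simpa using h
    | succ n ih =>
      have e1 : ζ ^ (n + 1) = ζ * ζ ^ n := by ring
      have e2 : w ^ (n + 1) * c = w * (w ^ n * c) := by ring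
      rw [e1, e2]; exact step2 _ _ ih
  rw [hb']
  apply s2
  have hm2 : m = m % 2 + 2 * (m / 2) := (Nat.mod_add_div m 2).symm
  rw [hm2]
  exact s1 _ _ (Nat.mod_lt _ (by norm_num))

section CR

variable (φ ψ : F → Γ) (t s : Γ)

def CR1 (a b : F) : Prop :=
  ψ a * Y2 φ s b * (ψ a)⁻¹ * (Y2 φ s b)⁻¹ = φ (a ^ 2 * b) * Y1 ψ t s (-(a * b))
def CR2 (a b : F) : Prop :=
  ψ a * Y1 ψ t s b * (ψ a)⁻¹ * (Y1 ψ t s b)⁻¹ = φ (-(2 * a * b))
def CR3 (a b : F) : Prop := ψ a * φ b = φ b * ψ a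

end CR

variable {φ ψ : F → Γ} {g t s : Γ} {ζ : F} {e : ℕ}

local notation "g1" => (s * g * s⁻¹)
local notation "t1" => (s * t * s⁻¹)
local notation "X1" => Y1 ψ t s
local notation "X2" => Y2 φ s

theorem CR1_conj {k : Γ} {z7 z2 : F} (h7 : Maps k ψ ψ z7) (h2 : Maps k X2 X2 z2)
    (h1 : Maps k X1 X1 (z7 * z2)) (h0 : Maps k φ φ (z7 ^ 2 * z2)) {a b : F}
    (H : CR1 φ ψ t s a b) : CR1 φ ψ t s (z7 * a) (z2 * b) := by
  unfold CR1 at *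
  have h := congrArg (fun x => k * x * k⁻¹) H
  have e1 : k * (ψ a * X2 b * (ψ a)⁻¹ * (X2 b)⁻¹) * k⁻¹
      = (k * ψ a * k⁻¹) * (k * X2 b * k⁻¹) * (k * ψ a * k⁻¹)⁻¹ * (k * X2 b * k⁻¹)⁻¹ := by group
  have e2 : k * (φ (a ^ 2 * b) * X1 (-(a * b))) * k⁻¹
      = (k * φ (a ^ 2 * b) * k⁻¹) * (k * X1 (-(a * b)) * k⁻¹) := by group
  have h' : k * (ψ a * X2 b * (ψ a)⁻¹ * (X2 b)⁻¹) * k⁻¹
      = k * (φ (a ^ 2 * b) * X1 (-(a * b))) * k⁻¹ := h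
  rw [e1, e2, h7, h2, h1, h0] at h'
  rw [h']
  congr 2 <;> ring

theorem CR2_conj {k : Γ} {z7 z1 : F} (h7 : Maps k ψ ψ z7) (h1 : Maps k X1 X1 z1)
    (h0 : Maps k φ φ (z7 * z1)) {a b : F}
    (H : CR2 φ ψ t s a b) : CR2 φ ψ t s (z7 * a) (z1 * b) := by
  unfold CR2 at *
  have h := congrArg (fun x => k * x * k⁻¹) H
  have e1 : k * (ψ a * X1 b * (ψ a)⁻¹ * (X1 b)⁻¹) * k⁻¹
      = (k * ψ a * k⁻¹) * (k * X1 b * k⁻¹) * (k * ψ a * k⁻¹)⁻¹ * (k * X1 b * k⁻¹)⁻¹ := by group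
  have h' : k * (ψ a * X1 b * (ψ a)⁻¹ * (X1 b)⁻¹) * k⁻¹ = k * φ (-(2 * a * b)) * k⁻¹ := h
  rw [e1, h7, h1, h0] at h'
  rw [h']
  congr 1; ring

theorem CR3_conj {k : Γ} {z7 z0 : F} (h7 : Maps k ψ ψ z7) (h0 : Maps k φ φ z0) {a b : F}
    (H : CR3 φ ψ a b) : CR3 φ ψ (z7 * a) (z0 * b) := by
  unfold CR3 at *
  have h := congrArg (fun x => k * x * k⁻¹) H
  have e1 : k * (ψ a * φ b) * k⁻¹ = (k * ψ a * k⁻¹) * (k * φ b * k⁻¹) := by group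
  have e2 : k * (φ b * ψ a) * k⁻¹ = (k * φ b * k⁻¹) * (k * ψ a * k⁻¹) := by group
  have h' : k * (ψ a * φ b) * k⁻¹ = k * (φ b * ψ a) * k⁻¹ := h
  rw [e1, e2, h7, h0] at h'
  exact h'

namespace S4

theorem kk_7 (S : S4 φ ψ g t s ζ e) : Maps (g * g1) ψ ψ 1 :=
  (S.g_7.comp S.g1_7).congr rfl (mul_inv_cancel₀ S.ζ_ne)
theorem kk_2 (S : S4 φ ψ g t s ζ e) : Maps (g * g1) X2 X2 (ζ ^ 2) :=
  (S.g_2.comp S.g1_2).congr rfl (one_mul _)
theorem kk_1 (S : S4 φ ψ g t s ζ e) : Maps (g * g1) X1 X1 (ζ ^ 2) :=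
  (S.g_1.comp S.g1_1).congr rfl (by ring)
theorem kk_0 (S : S4 φ ψ g t s ζ e) : Maps (g * g1) φ φ (ζ ^ 2) :=
  (S.g_0.comp S.g1_0).congr rfl (mul_one _)

theorem CR1_all (S : S4 φ ψ g t s ζ e) (hgen : ∀ b : F, b ≠ 0 → ∃ j : ℕ, ζ ^ j = b) (a b : F) :
    CR1 φ ψ t s a b := by
  refine cover (w := 1) one_ne_zero hgen ?_ ?_ ?_ ?_ ?_ a b
  · intro b; unfold CR1
    simp [phi_zero S.addψ, phi_zero S.addφ, phi_zero S.add1]
  · intro a; unfold CR1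
    simp [phi_zero S.add2, phi_zero S.addφ, phi_zero S.add1]
  · intro i hi; unfold CR1
    simpa using S.C1 i hi
  · intro a b h
    have := CR1_conj (S.kk_7) (S.kk_2) (S.kk_1.congr rfl (by ring)) (S.kk_0.congr rfl (by ring)) h
    rwa [one_mul] at this
  · intro a b h
    exact CR1_conj S.g_7 S.g_2 (S.g_1.congr rfl (by ring)) (S.g_0.congr rfl (by ring)) h

theorem CR2_all (S : S4 φ ψ g t s ζ e) (hgen : ∀ b : F, b ≠ 0 → ∃ j : ℕ, ζ ^ j = b) (a b : F) :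
    CR2 φ ψ t s a b := by
  refine cover (w := ζ) S.ζ_ne hgen ?_ ?_ ?_ ?_ ?_ a b
  · intro b; unfold CR2
    simp [phi_zero S.addψ, phi_zero S.addφ]
  · intro a; unfold CR2
    simp [phi_zero S.addφ, phi_zero S.add1]
  · intro i hi; unfold CR2
    simpa using S.C2 i hi
  · intro a b h
    have := CR2_conj (S.kk_7) (S.kk_1) (S.kk_0.congr rfl (by ring)) h
    rwa [one_mul] at this
  · intro a b h
    exact CR2_conj S.g_7 S.g_1 (S.g_0.congr rfl (by ring)) h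

theorem CR3_all (S : S4 φ ψ g t s ζ e) (hgen : ∀ b : F, b ≠ 0 → ∃ j : ℕ, ζ ^ j = b) (a b : F) :
    CR3 φ ψ a b := by
  refine cover (w := ζ ^ 2) S.z2 hgen ?_ ?_ ?_ ?_ ?_ a b
  · intro b; unfold CR3
    simp [phi_zero S.addψ]
  · intro a; unfold CR3
    simp [phi_zero S.addφ]
  · intro i hi; unfold CR3
    exact S.C3 i hi
  · intro a b h
    have := CR3_conj (S.kk_7) (S.kk_0) h
    rwa [one_mul] at this
  · intro a b h
    exact CR3_conj S.g_7 S.g_0 h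

end S4

/-- the collected relations in the unipotent group -/
structure UR (φ ψ : F → Γ) (t s : Γ) : Prop where
  a7 : ∀ x y, ψ x * ψ y = ψ (x + y)
  a2 : ∀ x y, Y2 φ s x * Y2 φ s y = Y2 φ s (x + y)
  a1 : ∀ x y, Y1 ψ t s x * Y1 ψ t s y = Y1 ψ t s (x + y)
  a0 : ∀ x y, φ x * φ y = φ (x + y)
  c01 : ∀ d c, φ d * Y1 ψ t s c = Y1 ψ t s c * φ d
  c02 : ∀ d b, φ d * Y2 φ s b = Y2 φ s b * φ d
  c07 : ∀ d a, φ d * ψ a = ψ a * φ d
  c12 : ∀ c b, Y1 ψ t s c * Y2 φ s b = Y2 φ s b * Y1 ψ t s c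
  c17 : ∀ c a, Y1 ψ t s c * ψ a = ψ a * (Y1 ψ t s c * φ (2 * a * c))
  c27 : ∀ b a, Y2 φ s b * ψ a = ψ a * (Y2 φ s b * (Y1 ψ t s (a * b) * φ (a ^ 2 * b)))

theorem tail {x y z : Γ} (h : x * y = z) (r : Γ) : x * (y * r) = z * r := by
  rw [← mul_assoc, h]

namespace S4

theorem ur (S : S4 φ ψ g t s ζ e) (hgen : ∀ b : F, b ≠ 0 → ∃ j : ℕ, ζ ^ j = b) :
    UR φ ψ t s := by
  have c07 : ∀ d a, φ d * ψ a = ψ a * φ d := fun d a => (S.CR3_all hgen a d).symm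
  have c01 : ∀ d c, φ d * X1 c = X1 c * φ d := by
    intro d c
    have h := congrArg (fun x => t1 * x * t1⁻¹) (c07 d c)
    have h' : t1 * (φ d * ψ c) * t1⁻¹ = t1 * (ψ c * φ d) * t1⁻¹ := h
    have e1 : t1 * (φ d * ψ c) * t1⁻¹ = (t1 * φ d * t1⁻¹) * (t1 * ψ c * t1⁻¹) := by group
    have e2 : t1 * (ψ c * φ d) * t1⁻¹ = (t1 * ψ c * t1⁻¹) * (t1 * φ d * t1⁻¹) := by group
    rw [e1, e2, S.t1φ d, one_mul] at h'
    exact h'
  have c12 : ∀ c b, X1 c * X2 b = X2 b * X1 c := by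
    intro c b
    obtain ⟨z, hz, hs⟩ := S.s_1
    have h := congrArg (fun x => s * x * s⁻¹) (c01 b (z⁻¹ * c))
    have h' : s * (φ b * X1 (z⁻¹ * c)) * s⁻¹ = s * (X1 (z⁻¹ * c) * φ b) * s⁻¹ := h
    have e1 : s * (φ b * X1 (z⁻¹ * c)) * s⁻¹ = (s * φ b * s⁻¹) * (s * X1 (z⁻¹ * c) * s⁻¹) := by
      group
    have e2 : s * (X1 (z⁻¹ * c) * φ b) * s⁻¹ = (s * X1 (z⁻¹ * c) * s⁻¹) * (s * φ b * s⁻¹) := by
      group
    rw [e1, e2, hs, mul_inv_cancel_left₀ hz] at h'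
    exact h'.symm
  have c17 : ∀ c a, X1 c * ψ a = ψ a * (X1 c * φ (2 * a * c)) := by
    intro c a
    have h := S.CR2_all hgen a c
    unfold CR2 at h
    rw [phi_neg S.addφ] at h
    have h2 : X1 c * ψ a = φ (2 * a * c) * (ψ a * X1 c) := by
      have : φ (2 * a * c) = (ψ a * X1 c * (ψ a)⁻¹ * (X1 c)⁻¹)⁻¹ := by rw [h, inv_inv]
      rw [this]; group
    rw [h2, ← mul_assoc, c07, mul_assoc, c01, mul_assoc]
  refine ⟨fun x y => (S.addψ x y).symm, fun x y => (S.add2 x y).symm, fun x y => (S.add1 x y).symm,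
    fun x y => (S.addφ x y).symm, c01, S.φφ, c07, c12, c17, ?_⟩
  intro b a
  have h := S.CR1_all hgen a b
  unfold CR1 at h
  have h2 : X2 b * ψ a = (φ (a ^ 2 * b) * X1 (-(a * b)))⁻¹ * (ψ a * X2 b) := by
    rw [← h]; group
  rw [h2, _root_.mul_inv_rev, ← phi_neg S.add1, neg_neg, ← phi_neg S.addφ]
  calc X1 (a * b) * φ (-(a ^ 2 * b)) * (ψ a * X2 b)
      = X1 (a * b) * (φ (-(a ^ 2 * b)) * ψ a) * X2 b := by group
    _ = (X1 (a * b) * ψ a) * φ (-(a ^ 2 * b)) * X2 b := by rw [c07]; group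
    _ = ψ a * X1 (a * b) * (φ (2 * a * (a * b)) * φ (-(a ^ 2 * b))) * X2 b := by
        rw [c17]; group
    _ = ψ a * X1 (a * b) * (φ (a ^ 2 * b) * X2 b) := by
        rw [← S.addφ]
        have : 2 * a * (a * b) + -(a ^ 2 * b) = a ^ 2 * b := by ring
        rw [this]; group
    _ = ψ a * (X1 (a * b) * X2 b) * φ (a ^ 2 * b) := by rw [S.φφ]; group
    _ = _ := by rw [c12]; group

end S4

end Cfsg.Agent.Lib.Helper43P4
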