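import Cfsg.Agent.Lib.Helper43P4C

set_option autoImplicit false
set_option linter.unusedSectionVars false

namespace Cfsg.Agent.Lib.Helper43P4

open Cfsg.Agent.Lib.Helper43Pres Cfsg.Agent.Lib.Helper43P3

variable {F : Type*} [Field F] {Γ : Type*} [Group Γ]

variable {φ ψ : F → Γ} {g t s : Γ} {ζ : F} {e : ℕ}

local notation "g1" => (s * g * s⁻¹)
local notation "t1" => (s * t * s⁻¹)
local notation "X1" => Y1 ψ t s
local notation "X2" => Y2 φ s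
local notation "X3" => Y3 ψ s
local notation "X4" => Y4 φ t
local notation "X5" => Y5 ψ t
local notation "X6" => Y6 φ t s

namespace UR

theorem a7' (R : UR φ ψ t s) (x y : F) (r : Γ) : ψ x * (ψ y * r) = ψ (x + y) * r := tail (R.a7 x y) r
theorem a2' (R : UR φ ψ t s) (x y : F) (r : Γ) : X2 x * (X2 y * r) = X2 (x + y) * r :=
  tail (R.a2 x y) r
theorem a1' (R : UR φ ψ t s) (x y : F) (r : Γ) : X1 x * (X1 y * r) = X1 (x + y) * r :=
  tail (R.a1 x y) r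
theorem a0' (R : UR φ ψ t s) (x y : F) (r : Γ) : φ x * (φ y * r) = φ (x + y) * r := tail (R.a0 x y) r
theorem c01' (R : UR φ ψ t s) (d c : F) (r : Γ) : φ d * (X1 c * r) = X1 c * φ d * r :=
  tail (R.c01 d c) r
theorem c02' (R : UR φ ψ t s) (d c : F) (r : Γ) : φ d * (X2 c * r) = X2 c * φ d * r :=
  tail (R.c02 d c) r
theorem c07' (R : UR φ ψ t s) (d c : F) (r : Γ) : φ d * (ψ c * r) = ψ c * φ d * r :=
  tail (R.c07 d c) r
theorem c12' (R : UR φ ψ t s) (d c : F) (r : Γ) : X1 d * (X2 c * r) = X2 c * X1 d * r :=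
  tail (R.c12 d c) r
theorem c17' (R : UR φ ψ t s) (c a : F) (r : Γ) :
    X1 c * (ψ a * r) = ψ a * (X1 c * φ (2 * a * c)) * r := tail (R.c17 c a) r
theorem c27' (R : UR φ ψ t s) (b a : F) (r : Γ) :
    X2 b * (ψ a * r) = ψ a * (X2 b * (X1 (a * b) * φ (a ^ 2 * b))) * r := tail (R.c27 b a) r

end UR

/-- normal form in `U` -/
def NFU (φ ψ : F → Γ) (t s : Γ) (y : Γ) : Prop :=
  ∃ a b c d : F, y = ψ a * (Y2 φ s b * (Y1 ψ t s c * φ d))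

theorem nf_congr {a a' b b' c c' d d' : F} (ha : a = a') (hb : b = b') (hc : c = c') (hd : d = d') :
    ψ a * (X2 b * (X1 c * φ d)) = ψ a' * (X2 b' * (X1 c' * φ d')) := by
  subst ha; subst hb; subst hc; subst hd; rfl

namespace UR

theorem nf_mul7 (R : UR φ ψ t s) {y : Γ} (hy : NFU φ ψ t s y) (x : F) : NFU φ ψ t s (y * ψ x) := by
  obtain ⟨a, b, c, d, rfl⟩ := hy
  refine ⟨a + x, b, x * b + c, x ^ 2 * b + 2 * x * c + d, ?_⟩
  simp only [mul_assoc, R.a7, R.a2, R.a1, R.a0, R.c01, R.c02, R.c07, R.c12, R.c17, R.c27,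
    R.a7', R.a2', R.a1', R.a0', R.c01', R.c02', R.c07', R.c12', R.c17', R.c27']
  exact nf_congr (by ring) (by ring) (by ring) (by ring)

theorem nf_mul2 (R : UR φ ψ t s) {y : Γ} (hy : NFU φ ψ t s y) (x : F) : NFU φ ψ t s (y * X2 x) := by
  obtain ⟨a, b, c, d, rfl⟩ := hy
  refine ⟨a, b + x, c, d, ?_⟩
  simp only [mul_assoc, R.a7, R.a2, R.a1, R.a0, R.c01, R.c02, R.c07, R.c12, R.c17, R.c27,
    R.a7', R.a2', R.a1', R.a0', R.c01', R.c02', R.c07', R.c12', R.c17', R.c27']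

theorem nf_mul1 (R : UR φ ψ t s) {y : Γ} (hy : NFU φ ψ t s y) (x : F) : NFU φ ψ t s (y * X1 x) := by
  obtain ⟨a, b, c, d, rfl⟩ := hy
  refine ⟨a, b, c + x, d, ?_⟩
  simp only [mul_assoc, R.a7, R.a2, R.a1, R.a0, R.c01, R.c02, R.c07, R.c12, R.c17, R.c27,
    R.a7', R.a2', R.a1', R.a0', R.c01', R.c02', R.c07', R.c12', R.c17', R.c27']

theorem nf_mul0 (R : UR φ ψ t s) {y : Γ} (hy : NFU φ ψ t s y) (x : F) : NFU φ ψ t s (y * φ x) := by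
  obtain ⟨a, b, c, d, rfl⟩ := hy
  refine ⟨a, b, c, d + x, ?_⟩
  simp only [mul_assoc, R.a7, R.a2, R.a1, R.a0, R.c01, R.c02, R.c07, R.c12, R.c17, R.c27,
    R.a7', R.a2', R.a1', R.a0', R.c01', R.c02', R.c07', R.c12', R.c17', R.c27']

theorem add7 (R : UR φ ψ t s) (x y : F) : ψ (x + y) = ψ x * ψ y := (R.a7 x y).symm
theorem add2 (R : UR φ ψ t s) (x y : F) : X2 (x + y) = X2 x * X2 y := (R.a2 x y).symm
theorem add1 (R : UR φ ψ t s) (x y : F) : X1 (x + y) = X1 x * X1 y := (R.a1 x y).symm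
theorem add0 (R : UR φ ψ t s) (x y : F) : φ (x + y) = φ x * φ y := (R.a0 x y).symm

theorem nf_of_mem (R : UR φ ψ t s) {y : Γ} (hy : y ∈ UU φ ψ t s) : NFU φ ψ t s y := by
  induction hy using Subgroup.closure_induction_right with
  | one =>
    exact ⟨0, 0, 0, 0, by
      rw [phi_zero R.add7, phi_zero R.add2, phi_zero R.add1, phi_zero R.add0]; simp⟩
  | mul_right x _ y hy ih =>
    rcases hy with ((⟨a, rfl⟩ | ⟨a, rfl⟩) | ⟨a, rfl⟩) | ⟨a, rfl⟩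
    · exact R.nf_mul7 ih a
    · exact R.nf_mul2 ih a
    · exact R.nf_mul1 ih a
    · exact R.nf_mul0 ih a
  | mul_inv_cancel x _ y hy ih =>
    rcases hy with ((⟨a, rfl⟩ | ⟨a, rfl⟩) | ⟨a, rfl⟩) | ⟨a, rfl⟩
    · rw [← phi_neg R.add7]; exact R.nf_mul7 ih _
    · rw [← phi_neg R.add2]; exact R.nf_mul2 ih _
    · rw [← phi_neg R.add1]; exact R.nf_mul1 ih _
    · rw [← phi_neg R.add0]; exact R.nf_mul0 ih _

end UR

namespace S4

/-! ### first simple reflection `s` -/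

theorem d1_s (S : S4 φ ψ g t s ζ e) (R : UR φ ψ t s) :
    ∀ y ∈ UU φ ψ t s, ∃ a y', y = ψ a * y' ∧ s⁻¹ * y' * s ∈ UU φ ψ t s := by
  intro y hy
  obtain ⟨a, b, c, d, rfl⟩ := R.nf_of_mem hy
  refine ⟨a, X2 b * (X1 c * φ d), rfl, ?_⟩
  obtain ⟨b', hb⟩ := (S.s_2.mv o).ex b
  obtain ⟨c', hc⟩ := S.s_1.ex c
  obtain ⟨d', hd⟩ := (S.s_0.mv o).ex d
  have h : s⁻¹ * (X2 b * (X1 c * φ d)) * s
      = (s * X2 b * s⁻¹) * ((s * X1 c * s⁻¹) * (s * φ d * s⁻¹)) := by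
    rw [S.sinv]
    calc s * (X2 b * (X1 c * φ d)) * s
        = s * X2 b * 1 * X1 c * 1 * φ d * s := by group
      _ = s * X2 b * (s * s) * X1 c * (s * s) * φ d * s := by rw [S.ss]
      _ = _ := by group
  rw [h, hb, hc, hd]
  exact (UU φ ψ t s).mul_mem (mem0 _) ((UU φ ψ t s).mul_mem (mem1 _) (mem2 _))

theorem d2_s (S : S4 φ ψ g t s ζ e) (hgen : ∀ b : F, b ≠ 0 → ∃ j : ℕ, ζ ^ j = b) :
    ∀ a : F, a ≠ 0 → ∃ a', ∃ η ∈ HH g s, ∃ a'', ψ a * s = X3 a' * η * ψ a'' := by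
  intro a ha
  obtain ⟨j, hj⟩ := hgen a ha
  set k := g ^ j with hk
  have hkm : k ∈ HH g s := (HH g s).pow_mem g_mem j
  have h7 : k * ψ 1 * k⁻¹ = ψ a := by rw [(S.g_7.pow j) 1, mul_one, hj]
  obtain ⟨a1, h3⟩ := (S.tor_of_mem hkm 3).ex 1
  have h3' : k * X3 1 * k⁻¹ = X3 a1 := h3
  set η0 := k * g1 ^ e * k⁻¹ with hη0
  have hη0m : η0 ∈ HH g s :=
    (HH g s).mul_mem ((HH g s).mul_mem hkm ((HH g s).pow_mem g1_mem e)) ((HH g s).inv_mem hkm)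
  set η1 := (s * k * s⁻¹) * k⁻¹ with hη1
  have hη1m : η1 ∈ HH g s := (HH g s).mul_mem (S.sH hkm) ((HH g s).inv_mem hkm)
  obtain ⟨a2, h2⟩ := (S.tor_of_mem hη1m 7).ex a
  have h2' : η1 * ψ a * η1⁻¹ = ψ a2 := h2
  have hks : k * s * k⁻¹ = s * η1 := by
    rw [hη1]
    calc k * s * k⁻¹ = (s * s) * k * s * k⁻¹ := by rw [S.ss]; group
      _ = s * (s * k * s) * k⁻¹ := by group
      _ = _ := by conv_rhs => rw [S.sinv]
                  group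
  have h0 := congrArg (fun x => k * x * k⁻¹) S.st
  have h0' : k * (ψ 1 * s) * k⁻¹ = k * (X3 1 * g1 ^ e * ψ 1) * k⁻¹ := h0
  have e1 : k * (ψ 1 * s) * k⁻¹ = (k * ψ 1 * k⁻¹) * (k * s * k⁻¹) := by group
  have e2 : k * (X3 1 * g1 ^ e * ψ 1) * k⁻¹
      = (k * X3 1 * k⁻¹) * (k * g1 ^ e * k⁻¹) * (k * ψ 1 * k⁻¹) := by group
  rw [e1, e2, h7, h3', hks, ← hη0] at h0'
  refine ⟨a1, η0 * η1⁻¹, (HH g s).mul_mem hη0m ((HH g s).inv_mem hη1m), a2, ?_⟩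
  rw [← h2']
  calc ψ a * s = (ψ a * (s * η1)) * η1⁻¹ := by group
    _ = _ := by rw [h0']; group

theorem d4_s (S : S4 φ ψ g t s ζ e) :
    ∀ w ∈ WW t s, ∃ η ∈ HH g s, ∃ w' ∈ WW t s, w * s = η * w' := by
  rintro w ⟨i, rfl | rfl⟩
  · exact ⟨1, (HH g s).one_mem, _, ⟨i, Or.inr rfl⟩, by simp⟩
  · exact ⟨1, (HH g s).one_mem, _, ⟨i, Or.inl rfl⟩, by rw [mul_assoc, S.ss]; simp⟩

/-! ### second simple reflection `t1` -/

theorem t1_1 (S : S4 φ ψ g t s ζ e) : Mv t1 X1 ψ :=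
  ((S.t1t1_mv (S.g1_7.mv S.zi)).comp (S.t1_7.mv o).inv).congr (by group)

theorem d1_t (S : S4 φ ψ g t s ζ e) (R : UR φ ψ t s) :
    ∀ y ∈ UU φ ψ t s, ∃ a y', y = X2 a * y' ∧ t1⁻¹ * y' * t1 ∈ UU φ ψ t s := by
  intro y hy
  obtain ⟨a, b, c, d, rfl⟩ := R.nf_of_mem hy
  refine ⟨b, ψ a * (X1 (c - a * b) * φ (d - a ^ 2 * b)), ?_, ?_⟩
  · simp only [mul_assoc, R.a7, R.a2, R.a1, R.a0, R.c01, R.c02, R.c07, R.c12, R.c17, R.c27,
      R.a7', R.a2', R.a1', R.a0', R.c01', R.c02', R.c07', R.c12', R.c17', R.c27']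
    exact nf_congr rfl rfl (by ring) (by ring)
  · obtain ⟨a', ha⟩ := S.t1_1.inv.ex a
    obtain ⟨c', hc⟩ := (S.t1_7.mv o).inv.ex (c - a * b)
    obtain ⟨d', hd⟩ := (S.t1φ.mv o).inv.ex (d - a ^ 2 * b)
    rw [inv_inv] at ha hc hd
    have h : t1⁻¹ * (ψ a * (X1 (c - a * b) * φ (d - a ^ 2 * b))) * t1
        = (t1⁻¹ * ψ a * t1) * ((t1⁻¹ * X1 (c - a * b) * t1) * (t1⁻¹ * φ (d - a ^ 2 * b) * t1)) := by
      group
    rw [h, ha, hc, hd]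
    exact (UU φ ψ t s).mul_mem (mem1 _) ((UU φ ψ t s).mul_mem (mem7 _) (mem0 _))

/-- the rank one identity for the long root -/
theorem d2_t0 (S : S4 φ ψ g t s ζ e) (hgen : ∀ b : F, b ≠ 0 → ∃ j : ℕ, ζ ^ j = b) :
    ∀ a : F, a ≠ 0 → ∃ a', ∃ η ∈ HH g s, ∃ a'', φ a * t = X4 a' * η * φ a'' := by
  intro a ha
  obtain ⟨j, hj⟩ := hgen (-a⁻¹) (neg_ne_zero.mpr (inv_ne_zero ha))
  have hR := S.RRall j
  unfold RR at hR
  rw [hj] at hR
  have e1 : (-a⁻¹)⁻¹ = -a := by rw [inv_neg, inv_inv]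
  rw [e1] at hR
  have P := S.pre0
  have hmem : (g ^ j)⁻¹ ∈ HH g s := (HH g s).inv_mem ((HH g s).pow_mem g_mem j)
  obtain ⟨a', ha'⟩ := (S.tor_of_mem hmem 4).ex (-a)
  have ha'' : (g ^ j)⁻¹ * X4 (-a) * (g ^ j)⁻¹⁻¹ = X4 a' := ha'
  refine ⟨a', (g ^ j)⁻¹, hmem, -a⁻¹, ?_⟩
  rw [← ha'']
  have e2 : t = (g ^ j)⁻¹ * (φ (-a⁻¹) * X4 (-a) * φ (-a⁻¹)) := by
    have : φ (-a⁻¹) * X4 (-a) * φ (-a⁻¹) = g ^ j * t := by
      rw [← hR]; unfold Y4; group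
    rw [this]; group
  have e3 : g ^ j * φ a * (g ^ j)⁻¹ = φ (a⁻¹) := by
    rw [P.conj_pow, ← pow_mul, mul_comm 2 j, pow_mul, hj]
    congr 1
    field_simp
  have e5 : φ a * (g ^ j)⁻¹ = (g ^ j)⁻¹ * φ a⁻¹ := by
    rw [← e3]; group
  calc φ a * t = φ a * ((g ^ j)⁻¹ * (φ (-a⁻¹) * X4 (-a) * φ (-a⁻¹))) := by
        conv_lhs => rw [e2]
    _ = (φ a * (g ^ j)⁻¹) * φ (-a⁻¹) * X4 (-a) * φ (-a⁻¹) := by group
    _ = (g ^ j)⁻¹ * (φ a⁻¹ * φ (-a⁻¹)) * X4 (-a) * φ (-a⁻¹) := by rw [e5]; group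
    _ = _ := by rw [phi_neg S.addφ]; group

theorem d2_t (S : S4 φ ψ g t s ζ e) (hgen : ∀ b : F, b ≠ 0 → ∃ j : ℕ, ζ ^ j = b) :
    ∀ a : F, a ≠ 0 → ∃ a', ∃ η ∈ HH g s, ∃ a'', X2 a * t1 = X6 a' * η * X2 a'' := by
  intro a ha
  obtain ⟨a', η, hη, a'', h⟩ := S.d2_t0 hgen a ha
  refine ⟨a', s * η * s⁻¹, S.sH hη, a'', ?_⟩
  have : X2 a * t1 = s * (φ a * t) * s⁻¹ := by unfold Y2; group
  rw [this, h]
  unfold Y6 Y2 Y4; group

theorem c2 (S : S4 φ ψ g t s ζ e) : (s * t) ^ 2 = t1 * t := by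
  rw [pow_two]
  calc s * t * (s * t) = s * t * s * t := by group
    _ = _ := by conv_rhs => rw [S.sinv]

theorem c4 (S : S4 φ ψ g t s ζ e) : (s * t) ^ 4 = (g1 ^ e)⁻¹ * (g ^ e)⁻¹ := by
  have : (s * t) ^ 4 = (s * t) ^ 2 * (s * t) ^ 2 := by rw [← pow_add]
  rw [this, S.c2, ← S.t1t1, ← S.tt]
  calc t1 * t * (t1 * t) = t1 * (t * t1) * t := by group
    _ = _ := by rw [S.tt1]; group

theorem c4_mem (S : S4 φ ψ g t s ζ e) : (s * t) ^ 4 ∈ HH g s := by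
  rw [S.c4]
  exact (HH g s).mul_mem ((HH g s).inv_mem ((HH g s).pow_mem g1_mem e))
    ((HH g s).inv_mem ((HH g s).pow_mem g_mem e))

theorem ts_c3 (S : S4 φ ψ g t s ζ e) :
    t * s = (s * t) ^ 3 * (((s * t) ^ 4)⁻¹ * (g1 ^ e)⁻¹) := by
  have h1 : (s * t) * (t * s) = (g1 ^ e)⁻¹ := by
    rw [← S.t1t1]
    calc s * t * (t * s) = s * t * 1 * t * s := by group
      _ = s * t * (s * s) * t * s := by rw [S.ss]
      _ = (s * t * s) * (s * t * s) := by group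
      _ = _ := by conv_rhs => rw [S.sinv]
  rw [← h1]
  generalize s * t = c
  have : c ^ 4 = c ^ 3 * c := by rw [← pow_succ]
  rw [this]; group

theorem d4_t (S : S4 φ ψ g t s ζ e) :
    ∀ w ∈ WW t s, ∃ η ∈ HH g s, ∃ w' ∈ WW t s, w * t1 = η * w' := by
  rintro w ⟨i, rfl | rfl⟩
  · refine ⟨1, (HH g s).one_mem, _, ⟨i + 1, Or.inr rfl⟩, ?_⟩
    rw [one_mul, pow_succ]
    conv_lhs => rw [S.sinv]
    group
  · have hk : ((s * t) ^ 4)⁻¹ * (g1 ^ e)⁻¹ ∈ HH g s :=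
      (HH g s).mul_mem ((HH g s).inv_mem S.c4_mem) ((HH g s).inv_mem ((HH g s).pow_mem g1_mem e))
    refine ⟨_, S.cpowH (i + 3) hk, _, ⟨i + 3, Or.inl rfl⟩, ?_⟩
    have h1 : (s * t) ^ i * s * t1 = (s * t) ^ i * (t * s) := by
      calc (s * t) ^ i * s * t1 = (s * t) ^ i * (s * s) * t * s⁻¹ := by group
        _ = _ := by rw [S.ss, S.sinv]; group
    rw [h1, S.ts_c3, pow_add]
    group

theorem inC_all (S : S4 φ ψ g t s ζ e) (hgen : ∀ b : F, b ≠ 0 → ∃ j : ℕ, ζ ^ j = b)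
    (hΓ : Subgroup.closure ({φ 1, ψ 1, g, t, s} : Set Γ) = ⊤) (x : Γ) :
    InC (UU φ ψ t s) (HH g s) (WW t s) x := by
  have R := S.ur hgen
  have D := S.bn
  have ms : ∀ {x}, InC (UU φ ψ t s) (HH g s) (WW t s) x →
      InC (UU φ ψ t s) (HH g s) (WW t s) (x * s) :=
    fun hx => D.inC_mul_ts ψ X3 s (S.d1_s R) (S.d2_s hgen) (S.d3 7) S.d4_s mem7
      (phi_zero S.addψ) hx
  have mt1 : ∀ {x}, InC (UU φ ψ t s) (HH g s) (WW t s) x →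
      InC (UU φ ψ t s) (HH g s) (WW t s) (x * t1) :=
    fun hx => D.inC_mul_ts X2 X6 t1 (S.d1_t R) (S.d2_t hgen) (S.d3 2) S.d4_t mem2
      (phi_zero S.add2) hx
  have mt : ∀ {x}, InC (UU φ ψ t s) (HH g s) (WW t s) x →
      InC (UU φ ψ t s) (HH g s) (WW t s) (x * t) := by
    intro x hx
    have : x * t = x * s * t1 * s := by
      calc x * t = x * (s * s) * t * (s⁻¹ * s) := by rw [S.ss]; group
        _ = _ := by group
    rw [this]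
    exact ms (mt1 (ms hx))
  have hx : x ∈ Subgroup.closure ({φ 1, ψ 1, g, t, s} : Set Γ) := by rw [hΓ]; trivial
  induction hx using Subgroup.closure_induction_right with
  | one => exact D.inC_one
  | mul_right x _ y hy ih =>
    rcases hy with rfl | rfl | rfl | rfl | rfl
    · exact D.inC_mul_U ih (mem0 _)
    · exact D.inC_mul_U ih (mem7 _)
    · exact D.inC_mul_H ih g_mem
    · exact mt ih
    · exact ms ih
  | mul_inv_cancel x _ y hy ih =>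
    rcases hy with rfl | rfl | hy | hy | hy
    · exact D.inC_mul_U ih ((UU φ ψ t s).inv_mem (mem0 _))
    · exact D.inC_mul_U ih ((UU φ ψ t s).inv_mem (mem7 _))
    · rw [hy]; exact D.inC_mul_H ih ((HH _ s).inv_mem g_mem)
    · have : x * t⁻¹ = x * t * (g ^ e) := by
        have h := S.tt
        calc x * t⁻¹ = x * t * (t * t)⁻¹ := by group
          _ = _ := by rw [h, inv_inv]
      rw [hy, this]
      exact D.inC_mul_H (mt ih) ((HH g s).pow_mem g_mem e)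
    · rw [Set.mem_singleton_iff] at hy
      rw [hy, S.sinv]
      exact ms ih

end S4

end Cfsg.Agent.Lib.Helper43P4
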