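import Cfsg.Agent.Lib.Helper43P4D

set_option autoImplicit false
set_option linter.unusedSimpArgs false
set_option linter.unusedSectionVars false
set_option linter.unreachableTactic false
set_option linter.unusedTactic false

namespace Cfsg.Agent.Lib.Helper43P4

open Cfsg.Agent.Lib.Helper43Pres Cfsg.Agent.Lib.Helper43P3 Matrix

variable {F : Type*} [Field F]

abbrev Mat4 (F : Type*) := Matrix (Fin 2 ⊕ Fin 2) (Fin 2 ⊕ Fin 2) F
abbrev Sp4 (F : Type*) [Field F] := symplecticGroup (Fin 2) F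

def r0 (a : F) : Mat4 F := fromBlocks 1 !![a, 0; 0, 0] 0 1
def r1 (a : F) : Mat4 F := fromBlocks 1 !![0, -a; -a, 0] 0 1
def r2 (a : F) : Mat4 F := fromBlocks 1 !![0, 0; 0, a] 0 1
def r3 (a : F) : Mat4 F := fromBlocks !![1, 0; a, 1] 0 0 !![1, -a; 0, 1]
def r4 (a : F) : Mat4 F := fromBlocks 1 0 !![-a, 0; 0, 0] 1
def r5 (a : F) : Mat4 F := fromBlocks 1 0 !![0, -a; -a, 0] 1
def r7 (a : F) : Mat4 F := fromBlocks !![1, a; 0, 1] 0 0 !![1, 0; -a, 1]
def rT : Mat4 F := fromBlocks !![0, 0; 0, 1] !![1, 0; 0, 0] !![-1, 0; 0, 0] !![0, 0; 0, 1]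
def rT1 : Mat4 F := fromBlocks !![1, 0; 0, 0] !![0, 0; 0, 1] !![0, 0; 0, -1] !![1, 0; 0, 0]
def rS : Mat4 F := fromBlocks !![0, 1; 1, 0] 0 0 !![0, 1; 1, 0]
def rH (x y x' y' : F) : Mat4 F := fromBlocks !![x, 0; 0, y] 0 0 !![x', 0; 0, y']

theorem r0_mem (a : F) : r0 a ∈ symplecticGroup (Fin 2) F := by
  rw [SymplecticGroup.mem_iff]
  ext (i | i) (j | j) <;> fin_cases i <;> fin_cases j <;>
    simp [r0, r1, r2, r3, r4, r5, r7, rT, rT1, rS, rH, Matrix.mul_apply, Fintype.sum_sum_type,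
      Fin.sum_univ_two, Matrix.J]
theorem r1_mem (a : F) : r1 a ∈ symplecticGroup (Fin 2) F := by
  rw [SymplecticGroup.mem_iff]
  ext (i | i) (j | j) <;> fin_cases i <;> fin_cases j <;>
    simp [r0, r1, r2, r3, r4, r5, r7, rT, rT1, rS, rH, Matrix.mul_apply, Fintype.sum_sum_type,
      Fin.sum_univ_two, Matrix.J]
theorem r2_mem (a : F) : r2 a ∈ symplecticGroup (Fin 2) F := by
  rw [SymplecticGroup.mem_iff]
  ext (i | i) (j | j) <;> fin_cases i <;> fin_cases j <;>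
    simp [r0, r1, r2, r3, r4, r5, r7, rT, rT1, rS, rH, Matrix.mul_apply, Fintype.sum_sum_type,
      Fin.sum_univ_two, Matrix.J]
theorem r3_mem (a : F) : r3 a ∈ symplecticGroup (Fin 2) F := by
  rw [SymplecticGroup.mem_iff]
  ext (i | i) (j | j) <;> fin_cases i <;> fin_cases j <;>
    simp [r0, r1, r2, r3, r4, r5, r7, rT, rT1, rS, rH, Matrix.mul_apply, Fintype.sum_sum_type,
      Fin.sum_univ_two, Matrix.J]
theorem r4_mem (a : F) : r4 a ∈ symplecticGroup (Fin 2) F := by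
  rw [SymplecticGroup.mem_iff]
  ext (i | i) (j | j) <;> fin_cases i <;> fin_cases j <;>
    simp [r0, r1, r2, r3, r4, r5, r7, rT, rT1, rS, rH, Matrix.mul_apply, Fintype.sum_sum_type,
      Fin.sum_univ_two, Matrix.J]
theorem r5_mem (a : F) : r5 a ∈ symplecticGroup (Fin 2) F := by
  rw [SymplecticGroup.mem_iff]
  ext (i | i) (j | j) <;> fin_cases i <;> fin_cases j <;>
    simp [r0, r1, r2, r3, r4, r5, r7, rT, rT1, rS, rH, Matrix.mul_apply, Fintype.sum_sum_type,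
      Fin.sum_univ_two, Matrix.J]
theorem r7_mem (a : F) : r7 a ∈ symplecticGroup (Fin 2) F := by
  rw [SymplecticGroup.mem_iff]
  ext (i | i) (j | j) <;> fin_cases i <;> fin_cases j <;>
    simp [r0, r1, r2, r3, r4, r5, r7, rT, rT1, rS, rH, Matrix.mul_apply, Fintype.sum_sum_type,
      Fin.sum_univ_two, Matrix.J]
theorem rT_mem  : (rT : Mat4 F) ∈ symplecticGroup (Fin 2) F := by
  rw [SymplecticGroup.mem_iff]
  ext (i | i) (j | j) <;> fin_cases i <;> fin_cases j <;>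
    simp [r0, r1, r2, r3, r4, r5, r7, rT, rT1, rS, rH, Matrix.mul_apply, Fintype.sum_sum_type,
      Fin.sum_univ_two, Matrix.J]
theorem rT1_mem  : (rT1 : Mat4 F) ∈ symplecticGroup (Fin 2) F := by
  rw [SymplecticGroup.mem_iff]
  ext (i | i) (j | j) <;> fin_cases i <;> fin_cases j <;>
    simp [r0, r1, r2, r3, r4, r5, r7, rT, rT1, rS, rH, Matrix.mul_apply, Fintype.sum_sum_type,
      Fin.sum_univ_two, Matrix.J]
theorem rS_mem  : (rS : Mat4 F) ∈ symplecticGroup (Fin 2) F := by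
  rw [SymplecticGroup.mem_iff]
  ext (i | i) (j | j) <;> fin_cases i <;> fin_cases j <;>
    simp [r0, r1, r2, r3, r4, r5, r7, rT, rT1, rS, rH, Matrix.mul_apply, Fintype.sum_sum_type,
      Fin.sum_univ_two, Matrix.J]
theorem rH_mem (x y : Fˣ) : rH (x : F) (y : F) ((x : F)⁻¹) ((y : F)⁻¹) ∈ symplecticGroup (Fin 2) F := by
  rw [SymplecticGroup.mem_iff]
  ext (i | i) (j | j) <;> fin_cases i <;> fin_cases j <;>
    simp [r0, r1, r2, r3, r4, r5, r7, rT, rT1, rS, rH, Matrix.mul_apply, Fintype.sum_sum_type,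
      Fin.sum_univ_two, Matrix.J]

def M0 (a : F) : Sp4 F := ⟨r0 a, r0_mem a⟩
def M1 (a : F) : Sp4 F := ⟨r1 a, r1_mem a⟩
def M2 (a : F) : Sp4 F := ⟨r2 a, r2_mem a⟩
def M3 (a : F) : Sp4 F := ⟨r3 a, r3_mem a⟩
def M4 (a : F) : Sp4 F := ⟨r4 a, r4_mem a⟩
def M5 (a : F) : Sp4 F := ⟨r5 a, r5_mem a⟩
def M7 (a : F) : Sp4 F := ⟨r7 a, r7_mem a⟩
def MT : Sp4 F := ⟨rT, rT_mem⟩
def MT1 : Sp4 F := ⟨rT1, rT1_mem⟩
def MS : Sp4 F := ⟨rS, rS_mem⟩
def MH (x y : Fˣ) : Sp4 F := ⟨rH (x : F) (y : F) ((x : F)⁻¹) ((y : F)⁻¹), rH_mem x y⟩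

theorem M0_add (a b : F) : M0 (a + b) = M0 a * M0 b := by
  apply Subtype.ext
  show (r0 (a + b) : Mat4 F) = r0 a * r0 b
  ext (i | i) (j | j) <;> fin_cases i <;> fin_cases j <;>
    simp [r0, r1, r2, r3, r4, r5, r7, rT, rT1, rS, rH, Matrix.mul_apply, Fintype.sum_sum_type,
      Fin.sum_univ_two, Matrix.J] <;> ring
theorem M7_add (a b : F) : M7 (a + b) = M7 a * M7 b := by
  apply Subtype.ext
  show (r7 (a + b) : Mat4 F) = r7 a * r7 b
  ext (i | i) (j | j) <;> fin_cases i <;> fin_cases j <;>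
    simp [r0, r1, r2, r3, r4, r5, r7, rT, rT1, rS, rH, Matrix.mul_apply, Fintype.sum_sum_type,
      Fin.sum_univ_two, Matrix.J] <;> ring
theorem MS_sq  : (MS : Sp4 F) * MS = 1 := by
  apply Subtype.ext
  show (rS * rS : Mat4 F) = 1
  ext (i | i) (j | j) <;> fin_cases i <;> fin_cases j <;>
    simp [r0, r1, r2, r3, r4, r5, r7, rT, rT1, rS, rH, Matrix.mul_apply, Fintype.sum_sum_type,
      Fin.sum_univ_two, Matrix.J]
theorem MH_0 (x y : Fˣ) (a : F) : MH x y * M0 a = M0 ((x : F) ^ 2 * a) * MH x y := by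
  apply Subtype.ext
  show (rH (x : F) (y : F) ((x : F)⁻¹) ((y : F)⁻¹) * r0 a : Mat4 F) = r0 ((x : F) ^ 2 * a) * rH (x : F) (y : F) ((x : F)⁻¹) ((y : F)⁻¹)
  ext (i | i) (j | j) <;> fin_cases i <;> fin_cases j <;>
    simp [r0, r1, r2, r3, r4, r5, r7, rT, rT1, rS, rH, Matrix.mul_apply, Fintype.sum_sum_type,
      Fin.sum_univ_two, Matrix.J] <;> field_simp
theorem MH_7 (x y : Fˣ) (a : F) : MH x y * M7 a = M7 ((x : F) * (y : F)⁻¹ * a) * MH x y := by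
  apply Subtype.ext
  show (rH (x : F) (y : F) ((x : F)⁻¹) ((y : F)⁻¹) * r7 a : Mat4 F) = r7 ((x : F) * (y : F)⁻¹ * a) * rH (x : F) (y : F) ((x : F)⁻¹) ((y : F)⁻¹)
  ext (i | i) (j | j) <;> fin_cases i <;> fin_cases j <;>
    simp [r0, r1, r2, r3, r4, r5, r7, rT, rT1, rS, rH, Matrix.mul_apply, Fintype.sum_sum_type,
      Fin.sum_univ_two, Matrix.J] <;> field_simp
theorem MS_H (x y : Fˣ) : MS * MH x y = MH y x * MS := by
  apply Subtype.ext
  show (rS * rH (x : F) (y : F) ((x : F)⁻¹) ((y : F)⁻¹) : Mat4 F) = rH (y : F) (x : F) ((y : F)⁻¹) ((x : F)⁻¹) * rS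
  ext (i | i) (j | j) <;> fin_cases i <;> fin_cases j <;>
    simp [r0, r1, r2, r3, r4, r5, r7, rT, rT1, rS, rH, Matrix.mul_apply, Fintype.sum_sum_type,
      Fin.sum_univ_two, Matrix.J]
theorem MT_H (x y : Fˣ) : MT * MH x y = MH x⁻¹ y * MT := by
  apply Subtype.ext
  show (rT * rH (x : F) (y : F) ((x : F)⁻¹) ((y : F)⁻¹) : Mat4 F) = rH ((x⁻¹ : Fˣ) : F) (y : F) (((x⁻¹ : Fˣ) : F)⁻¹) ((y : F)⁻¹) * rT
  ext (i | i) (j | j) <;> fin_cases i <;> fin_cases j <;>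
    simp [r0, r1, r2, r3, r4, r5, r7, rT, rT1, rS, rH, Matrix.mul_apply, Fintype.sum_sum_type,
      Fin.sum_univ_two, Matrix.J]
theorem MH_mul (x y x' y' : Fˣ) : MH x y * MH x' y' = MH (x * x') (y * y') := by
  apply Subtype.ext
  show (rH (x : F) (y : F) ((x : F)⁻¹) ((y : F)⁻¹) * rH (x' : F) (y' : F) ((x' : F)⁻¹) ((y' : F)⁻¹) : Mat4 F) = rH ((x * x' : Fˣ) : F) ((y * y' : Fˣ) : F) (((x * x' : Fˣ) : F)⁻¹) (((y * y' : Fˣ) : F)⁻¹)
  ext (i | i) (j | j) <;> fin_cases i <;> fin_cases j <;>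
    simp [r0, r1, r2, r3, r4, r5, r7, rT, rT1, rS, rH, Matrix.mul_apply, Fintype.sum_sum_type,
      Fin.sum_univ_two, Matrix.J] <;> ring
theorem MH_one  : MH (1 : Fˣ) 1 = 1 := by
  apply Subtype.ext
  show (rH ((1 : Fˣ) : F) ((1 : Fˣ) : F) (((1 : Fˣ) : F)⁻¹) (((1 : Fˣ) : F)⁻¹) : Mat4 F) = 1
  ext (i | i) (j | j) <;> fin_cases i <;> fin_cases j <;>
    simp [r0, r1, r2, r3, r4, r5, r7, rT, rT1, rS, rH, Matrix.mul_apply, Fintype.sum_sum_type,
      Fin.sum_univ_two, Matrix.J]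
theorem M_RR (x : Fˣ) : M0 (x : F) * MT * M0 (x : F)⁻¹ = MH x 1 * MT * M0 (-(x : F)) * MT := by
  apply Subtype.ext
  show (r0 (x : F) * rT * r0 (x : F)⁻¹ : Mat4 F) = rH (x : F) ((1 : Fˣ) : F) ((x : F)⁻¹) (((1 : Fˣ) : F)⁻¹) * rT * r0 (-(x : F)) * rT
  ext (i | i) (j | j) <;> fin_cases i <;> fin_cases j <;>
    simp [r0, r1, r2, r3, r4, r5, r7, rT, rT1, rS, rH, Matrix.mul_apply, Fintype.sum_sum_type,
      Fin.sum_univ_two, Matrix.J]
theorem MS_T  : (MS : Sp4 F) * MT = MT1 * MS := by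
  apply Subtype.ext
  show (rS * rT : Mat4 F) = rT1 * rS
  ext (i | i) (j | j) <;> fin_cases i <;> fin_cases j <;>
    simp [r0, r1, r2, r3, r4, r5, r7, rT, rT1, rS, rH, Matrix.mul_apply, Fintype.sum_sum_type,
      Fin.sum_univ_two, Matrix.J]
theorem MT_T1  : (MT : Sp4 F) * MT1 = MT1 * MT := by
  apply Subtype.ext
  show (rT * rT1 : Mat4 F) = rT1 * rT
  ext (i | i) (j | j) <;> fin_cases i <;> fin_cases j <;>
    simp [r0, r1, r2, r3, r4, r5, r7, rT, rT1, rS, rH, Matrix.mul_apply, Fintype.sum_sum_type,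
      Fin.sum_univ_two, Matrix.J]
theorem MT1_0 (a : F) : MT1 * M0 a = M0 a * MT1 := by
  apply Subtype.ext
  show (rT1 * r0 a : Mat4 F) = r0 a * rT1
  ext (i | i) (j | j) <;> fin_cases i <;> fin_cases j <;>
    simp [r0, r1, r2, r3, r4, r5, r7, rT, rT1, rS, rH, Matrix.mul_apply, Fintype.sum_sum_type,
      Fin.sum_univ_two, Matrix.J]
theorem MS_0 (a : F) : MS * M0 a = M2 a * MS := by
  apply Subtype.ext
  show (rS * r0 a : Mat4 F) = r2 a * rS
  ext (i | i) (j | j) <;> fin_cases i <;> fin_cases j <;>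
    simp [r0, r1, r2, r3, r4, r5, r7, rT, rT1, rS, rH, Matrix.mul_apply, Fintype.sum_sum_type,
      Fin.sum_univ_two, Matrix.J]
theorem M0_2 (a b : F) : M0 a * M2 b = M2 b * M0 a := by
  apply Subtype.ext
  show (r0 a * r2 b : Mat4 F) = r2 b * r0 a
  ext (i | i) (j | j) <;> fin_cases i <;> fin_cases j <;>
    simp [r0, r1, r2, r3, r4, r5, r7, rT, rT1, rS, rH, Matrix.mul_apply, Fintype.sum_sum_type,
      Fin.sum_univ_two, Matrix.J]
theorem MS_7 (a : F) : MS * M7 a = M3 a * MS := by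
  apply Subtype.ext
  show (rS * r7 a : Mat4 F) = r3 a * rS
  ext (i | i) (j | j) <;> fin_cases i <;> fin_cases j <;>
    simp [r0, r1, r2, r3, r4, r5, r7, rT, rT1, rS, rH, Matrix.mul_apply, Fintype.sum_sum_type,
      Fin.sum_univ_two, Matrix.J]
theorem M_st  : M7 (1 : F) * MS = M3 1 * MH 1 (-1) * M7 1 := by
  apply Subtype.ext
  show (r7 (1 : F) * rS : Mat4 F) = r3 1 * rH ((1 : Fˣ) : F) ((-1 : Fˣ) : F) (((1 : Fˣ) : F)⁻¹) (((-1 : Fˣ) : F)⁻¹) * r7 1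
  ext (i | i) (j | j) <;> fin_cases i <;> fin_cases j <;>
    simp [r0, r1, r2, r3, r4, r5, r7, rT, rT1, rS, rH, Matrix.mul_apply, Fintype.sum_sum_type,
      Fin.sum_univ_two, Matrix.J]
theorem M_stab (a : F) : (MS * MT * MT1) * M7 a = M7 (-1 * a) * (MS * MT * MT1) := by
  apply Subtype.ext
  show ((rS * rT * rT1) * r7 a : Mat4 F) = r7 (-1 * a) * (rS * rT * rT1)
  ext (i | i) (j | j) <;> fin_cases i <;> fin_cases j <;>
    simp [r0, r1, r2, r3, r4, r5, r7, rT, rT1, rS, rH, Matrix.mul_apply, Fintype.sum_sum_type,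
      Fin.sum_univ_two, Matrix.J]
theorem MT1_7 (a : F) : MT1 * M7 a = M1 a * MT1 := by
  apply Subtype.ext
  show (rT1 * r7 a : Mat4 F) = r1 a * rT1
  ext (i | i) (j | j) <;> fin_cases i <;> fin_cases j <;>
    simp [r0, r1, r2, r3, r4, r5, r7, rT, rT1, rS, rH, Matrix.mul_apply, Fintype.sum_sum_type,
      Fin.sum_univ_two, Matrix.J]
theorem M_C1 (a b : F) : M7 a * M2 b = M0 (a ^ 2 * b) * M1 (-(a * b)) * M2 b * M7 a := by
  apply Subtype.ext
  show (r7 a * r2 b : Mat4 F) = r0 (a ^ 2 * b) * r1 (-(a * b)) * r2 b * r7 a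
  ext (i | i) (j | j) <;> fin_cases i <;> fin_cases j <;>
    simp [r0, r1, r2, r3, r4, r5, r7, rT, rT1, rS, rH, Matrix.mul_apply, Fintype.sum_sum_type,
      Fin.sum_univ_two, Matrix.J] <;> ring
theorem M_C2 (a b : F) : M7 a * M1 b = M0 (-(2 * a * b)) * M1 b * M7 a := by
  apply Subtype.ext
  show (r7 a * r1 b : Mat4 F) = r0 (-(2 * a * b)) * r1 b * r7 a
  ext (i | i) (j | j) <;> fin_cases i <;> fin_cases j <;>
    simp [r0, r1, r2, r3, r4, r5, r7, rT, rT1, rS, rH, Matrix.mul_apply, Fintype.sum_sum_type,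
      Fin.sum_univ_two, Matrix.J] <;> ring
theorem M_C3 (a b : F) : M7 a * M0 b = M0 b * M7 a := by
  apply Subtype.ext
  show (r7 a * r0 b : Mat4 F) = r0 b * r7 a
  ext (i | i) (j | j) <;> fin_cases i <;> fin_cases j <;>
    simp [r0, r1, r2, r3, r4, r5, r7, rT, rT1, rS, rH, Matrix.mul_apply, Fintype.sum_sum_type,
      Fin.sum_univ_two, Matrix.J]
theorem MT_0 (a : F) : MT * M0 a = M4 a * MT := by
  apply Subtype.ext
  show (rT * r0 a : Mat4 F) = r4 a * rT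
  ext (i | i) (j | j) <;> fin_cases i <;> fin_cases j <;>
    simp [r0, r1, r2, r3, r4, r5, r7, rT, rT1, rS, rH, Matrix.mul_apply, Fintype.sum_sum_type,
      Fin.sum_univ_two, Matrix.J]
theorem MT_7 (a : F) : MT * M7 a = M5 a * MT := by
  apply Subtype.ext
  show (rT * r7 a : Mat4 F) = r5 a * rT
  ext (i | i) (j | j) <;> fin_cases i <;> fin_cases j <;>
    simp [r0, r1, r2, r3, r4, r5, r7, rT, rT1, rS, rH, Matrix.mul_apply, Fintype.sum_sum_type,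
      Fin.sum_univ_two, Matrix.J]

end Cfsg.Agent.Lib.Helper43P4
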