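import Cfsg.Agent.Lib.Helper43P4F

set_option autoImplicit false
set_option linter.unusedSimpArgs false
set_option linter.unusedSectionVars false

namespace Cfsg.Agent.Lib.Helper43P4

open Cfsg.Agent.Lib.Helper43Pres Cfsg.Agent.Lib.Helper43P3 Matrix

variable {F : Type*} [Field F]

theorem conj_of_mul {G : Type*} [Group G] {w x x' : G} (h : w * x = x' * w) : w * x * w⁻¹ = x' := by
  rw [h]; group

theorem MH_inv (x y : Fˣ) : (MH x y)⁻¹ = MH x⁻¹ y⁻¹ := by
  apply inv_eq_of_mul_eq_one_right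
  rw [MH_mul]; simp [MH_one]

theorem MH_pow (x y : Fˣ) (n : ℕ) : (MH x y) ^ n = MH (x ^ n) (y ^ n) := by
  induction n with
  | zero => simp [MH_one]
  | succ n ih => rw [pow_succ, ih, MH_mul, pow_succ, pow_succ]

theorem MH_zpow (x y : Fˣ) (n : ℤ) : (MH x y) ^ n = MH (x ^ n) (y ^ n) := by
  cases n with
  | ofNat n => simp [MH_pow]
  | negSucc n => simp only [zpow_negSucc, MH_pow, MH_inv]

theorem MS_conj_H (x y : Fˣ) : MS * MH x y * MS⁻¹ = MH y x := conj_of_mul (MS_H x y)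
theorem MS_conj_T : (MS : Sp4 F) * MT * MS⁻¹ = MT1 := conj_of_mul MS_T

theorem Y2_M (a : F) : Y2 M0 MS a = M2 a := conj_of_mul (MS_0 a)
theorem Y3_M (a : F) : Y3 M7 MS a = M3 a := conj_of_mul (MS_7 a)
theorem Y4_M (a : F) : Y4 M0 MT a = M4 a := conj_of_mul (MT_0 a)
theorem Y5_M (a : F) : Y5 M7 MT a = M5 a := conj_of_mul (MT_7 a)
theorem Y1_M (a : F) : Y1 M7 MT MS a = M1 a := by
  unfold Y1; rw [MS_conj_T]; exact conj_of_mul (MT1_7 a)

theorem sp_RR (z : Fˣ) (j : ℕ) : RR (M0 : F → _) (MH z 1) MT (z : F) j := by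
  unfold RR
  have h := M_RR (z ^ j)
  rw [Units.val_pow_eq_pow_val] at h
  rw [h, MH_pow, one_pow, phi_neg M0_add]
  group

/-- the model -/
theorem sp4_S4 (z : Fˣ) (e : ℕ) (he : (z : F) ^ e = -1) :
    S4 (M0 : F → _) M7 (MH z 1) MT MS (z : F) e where
  addφ := M0_add
  addψ := M7_add
  ζ_ne := z.ne_zero
  he := he
  ss := MS_sq
  gφ := fun a => conj_of_mul (MH_0 z 1 a)
  gψ := by
    intro a
    have := conj_of_mul (MH_7 z 1 a)
    simpa using this
  tg := by
    rw [conj_of_mul (MT_H z 1), MH_inv, inv_one]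
  R0 := sp_RR z 0
  R1 := sp_RR z 1
  gg := by rw [MS_conj_H, MH_mul, MH_mul, mul_comm, mul_comm 1 z]
  tg1 := by
    rw [MS_conj_H]
    have := MT_H (1 : Fˣ) z
    rwa [inv_one] at this
  tt1 := by rw [MS_conj_T]; exact MT_T1
  g1φ := by
    intro a
    rw [MS_conj_H]
    have := conj_of_mul (MH_0 1 z a)
    simpa using this
  t1φ := by
    intro a
    rw [MS_conj_T, one_mul]
    exact conj_of_mul (MT1_0 a)
  φφ := by
    intro a b
    rw [Y2_M]; exact M0_2 a b
  g1ψ := by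
    intro a
    rw [MS_conj_H]
    have := conj_of_mul (MH_7 1 z a)
    simpa using this
  st := by
    have h1 : z ^ e = -1 := by
      apply Units.ext; simpa using he
    rw [Y3_M, MS_conj_H, MH_pow, one_pow, h1]
    exact M_st
  stab := by
    intro a
    rw [MS_conj_T]
    exact conj_of_mul (M_stab a)
  C1 := by
    intro i _
    rw [Y2_M, Y1_M, M_C1]
    simp only [one_pow, one_mul]
    group
  C2 := by
    intro i _
    rw [Y1_M, M_C2]
    simp only [mul_one]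
    group
  C3 := fun i _ => M_C3 _ _

/-- block upper triangular -/
structure UT (M : Mat4 F) : Prop where
  z10 : M (Sum.inl 1) (Sum.inl 0) = 0
  c00 : M (Sum.inr 0) (Sum.inl 0) = 0
  c01 : M (Sum.inr 0) (Sum.inl 1) = 0
  c10 : M (Sum.inr 1) (Sum.inl 0) = 0
  c11 : M (Sum.inr 1) (Sum.inl 1) = 0
  z01 : M (Sum.inr 0) (Sum.inr 1) = 0

theorem UT.mul {A B : Mat4 F} (hA : UT A) (hB : UT B) : UT (A * B) := by
  constructor <;>
    simp [Matrix.mul_apply, Fintype.sum_sum_type, Fin.sum_univ_two, hA.z10, hA.c00, hA.c01, hA.c10,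
      hA.c11, hA.z01, hB.z10, hB.c00, hB.c01, hB.c10, hB.c11, hB.z01]

theorem UT_0 (a : F) : UT (r0 a) := by constructor <;> simp [r0]
theorem UT_1 (a : F) : UT (r1 a) := by constructor <;> simp [r1]
theorem UT_2 (a : F) : UT (r2 a) := by constructor <;> simp [r2]
theorem UT_7 (a : F) : UT (r7 a) := by constructor <;> simp [r7]
theorem UT_H (x y x' y' : F) : UT (rH x y x' y') := by constructor <;> simp [rH]

namespace S4

variable {Γ : Type*} [Group Γ] {φ ψ : F → Γ} {g t s : Γ} {ζ : F} {e : ℕ}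

local notation "g1" => (s * g * s⁻¹)
local notation "t1" => (s * t * s⁻¹)
local notation "X1" => Y1 ψ t s
local notation "X2" => Y2 φ s

theorem H_nf (S : S4 φ ψ g t s ζ e) {η : Γ} (hη : η ∈ HH g s) :
    ∃ m n : ℤ, η = g ^ m * g1 ^ n := by
  have hc : Commute g g1 := S.gg
  induction hη using Subgroup.closure_induction with
  | mem x hx =>
    rcases hx with hx | hx
    · exact ⟨1, 0, by rw [hx]; simp⟩
    · rw [Set.mem_singleton_iff] at hx
      exact ⟨0, 1, by rw [hx]; simp⟩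
  | one => exact ⟨0, 0, by simp⟩
  | mul x y _ _ ihx ihy =>
    obtain ⟨m, n, rfl⟩ := ihx
    obtain ⟨m', n', rfl⟩ := ihy
    refine ⟨m + m', n + n', ?_⟩
    rw [_root_.zpow_add, _root_.zpow_add]
    have := (hc.zpow_zpow m' n).eq
    calc g ^ m * g1 ^ n * (g ^ m' * g1 ^ n') = g ^ m * (g1 ^ n * g ^ m') * g1 ^ n' := by group
      _ = g ^ m * (g ^ m' * g1 ^ n) * g1 ^ n' := by rw [this]
      _ = _ := by group
  | inv x _ ih =>
    obtain ⟨m, n, rfl⟩ := ih
    refine ⟨-m, -n, ?_⟩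
    rw [_root_.mul_inv_rev, _root_.zpow_neg, _root_.zpow_neg]
    exact ((hc.zpow_zpow m n).inv_inv).eq.symm

theorem g_pow (S : S4 φ ψ g t s ζ e) {N : ℕ} (hN : ζ ^ N = 1) : g ^ N = 1 ∧ g1 ^ N = 1 := by
  have h3 : g ^ N = 1 := h_pow_of_RR hN S.R0 (S.RRall N)
  exact ⟨h3, by rw [conj_pow, h3]; group⟩

theorem injective (S : S4 φ ψ g t s ζ e)
    (hgen : ∀ b : F, b ≠ 0 → ∃ j : ℕ, ζ ^ j = b) (z : Fˣ) (hz : (z : F) = ζ)
    (hΓ : Subgroup.closure ({φ 1, ψ 1, g, t, s} : Set Γ) = ⊤)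
    (π : Γ →* Sp4 F) (h0 : ∀ a, π (φ a) = M0 a) (h7 : ∀ a, π (ψ a) = M7 a)
    (hg : π g = MH z 1) (ht : π t = MT) (hs : π s = MS) : Function.Injective π := by
  rw [injective_iff_map_eq_one]
  intro x hx
  have R := S.ur hgen
  have p1 : ∀ b, π (X1 b) = M1 b := by
    intro b
    unfold Y1
    simp only [map_mul, map_inv, h7, ht, hs]
    exact Y1_M b
  have p2 : ∀ b, π (X2 b) = M2 b := by
    intro b
    unfold Y2
    simp only [map_mul, map_inv, h0, hs]
    exact Y2_M b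
  have pU : ∀ y ∈ UU φ ψ t s, UT (π y).1 := by
    intro y hy
    obtain ⟨a, b, c, d, rfl⟩ := R.nf_of_mem hy
    rw [map_mul, map_mul, map_mul, h0, h7, p1, p2]
    exact (UT_7 a).mul ((UT_2 b).mul ((UT_1 c).mul (UT_0 d)))
  have pg1 : π g1 = MH 1 z := by
    rw [map_mul, map_mul, map_inv, hg, hs, MS_conj_H]
  have pH : ∀ m n : ℤ, π (g ^ m * g1 ^ n) = MH (z ^ m) (z ^ n) := by
    intro m n
    rw [map_mul, map_zpow, map_zpow, hg, pg1, MH_zpow, MH_zpow, MH_mul]
    simp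
  have pHU : ∀ η ∈ HH g s, UT (π η).1 := by
    intro η hη
    obtain ⟨m, n, rfl⟩ := S.H_nf hη
    rw [pH]; exact UT_H _ _ _ _
  obtain ⟨y1, hy1, η, hη, w, hw, y2, hy2, rfl⟩ := S.inC_all hgen hΓ x
  -- the image of `w` is upper triangular
  have hwUT : UT (π w).1 := by
    have e1 : w = η⁻¹ * (y1⁻¹ * ((y1 * η * w * y2) * y2⁻¹)) := by group
    have e2 : π w = π η⁻¹ * (π y1⁻¹ * π y2⁻¹) := by
      conv_lhs => rw [e1]
      rw [map_mul, map_mul, map_mul, hx, one_mul]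
    rw [e2]
    exact (pHU _ ((HH g s).inv_mem hη)).mul
      ((pU _ ((UU φ ψ t s).inv_mem hy1)).mul (pU _ ((UU φ ψ t s).inv_mem hy2)))
  have hsplit : ∀ i : ℕ, (s * t) ^ i = ((s * t) ^ 4) ^ (i / 4) * (s * t) ^ (i % 4) := by
    intro i
    rw [← pow_mul, ← pow_add, Nat.div_add_mod]
  have hzq : ∀ q : ℕ, ((s * t) ^ 4) ^ q ∈ HH g s := fun q => (HH g s).pow_mem S.c4_mem q
  have hred : ∀ (q : ℕ) (v : Γ), UT (π (((s * t) ^ 4) ^ q * v)).1 → UT (π v).1 := by
    intro q v h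
    have e1 : v = (((s * t) ^ 4) ^ q)⁻¹ * (((s * t) ^ 4) ^ q * v) := by group
    rw [e1, map_mul]
    exact (pHU _ ((HH g s).inv_mem (hzq q))).mul h
  have hwH : w ∈ HH g s := by
    obtain ⟨i, rfl | rfl⟩ := hw
    · rw [hsplit i] at hwUT ⊢
      have h := hred _ _ hwUT
      have hi : i % 4 < 4 := Nat.mod_lt _ (by norm_num)
      interval_cases (i % 4)
      · simpa using hzq (i / 4)
      · exfalso
        rw [pow_one, map_mul, hs, ht] at h
        have := h.c10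
        have h' : (rS * rT : Mat4 F) (Sum.inr 1) (Sum.inl 0) = 0 := this
        simp [rS, rT, Matrix.mul_apply, Fintype.sum_sum_type, Fin.sum_univ_two] at h'
      · exfalso
        rw [pow_two, map_mul, map_mul, hs, ht] at h
        have := h.c00
        have h' : ((rS * rT) * (rS * rT) : Mat4 F) (Sum.inr 0) (Sum.inl 0) = 0 := this
        simp [rS, rT, Matrix.mul_apply, Fintype.sum_sum_type, Fin.sum_univ_two] at h'
      · exfalso
        rw [pow_succ, pow_two, map_mul, map_mul, map_mul, hs, ht] at h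
        have := h.z10
        have h' : ((rS * rT) * (rS * rT) * (rS * rT) : Mat4 F) (Sum.inl 1) (Sum.inl 0) = 0 := this
        simp [rS, rT, Matrix.mul_apply, Fintype.sum_sum_type, Fin.sum_univ_two] at h'
    · exfalso
      rw [hsplit i, mul_assoc] at hwUT
      have h := hred _ _ hwUT
      have hi : i % 4 < 4 := Nat.mod_lt _ (by norm_num)
      interval_cases (i % 4)
      · rw [pow_zero, one_mul, hs] at h
        have := h.z10
        have h' : (rS : Mat4 F) (Sum.inl 1) (Sum.inl 0) = 0 := this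
        simp [rS] at h'
      · rw [pow_one, map_mul, map_mul, hs, ht] at h
        have := h.c11
        have h' : (rS * rT * rS : Mat4 F) (Sum.inr 1) (Sum.inl 1) = 0 := this
        simp [rS, rT, Matrix.mul_apply, Fintype.sum_sum_type, Fin.sum_univ_two] at h'
      · rw [pow_two, map_mul, map_mul, map_mul, hs, ht] at h
        have := h.c10
        have h' : ((rS * rT) * (rS * rT) * rS : Mat4 F) (Sum.inr 1) (Sum.inl 0) = 0 := this
        simp [rS, rT, Matrix.mul_apply, Fintype.sum_sum_type, Fin.sum_univ_two] at h'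
      · rw [pow_succ, pow_two, map_mul, map_mul, map_mul, map_mul, hs, ht] at h
        have := h.c00
        have h' : ((rS * rT) * (rS * rT) * (rS * rT) * rS : Mat4 F) (Sum.inr 0) (Sum.inl 0) = 0 :=
          this
        simp [rS, rT, Matrix.mul_apply, Fintype.sum_sum_type, Fin.sum_univ_two] at h'
  -- now in the Borel subgroup
  have hη' : η * w ∈ HH g s := (HH g s).mul_mem hη hwH
  obtain ⟨m, n, hmn⟩ := S.H_nf hη'
  have hy : y1 * ((η * w) * y2 * (η * w)⁻¹) ∈ UU φ ψ t s :=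
    (UU φ ψ t s).mul_mem hy1 (S.HU _ hη' y2 hy2)
  obtain ⟨a, b, c, d, hnf⟩ := R.nf_of_mem hy
  have hxe : y1 * η * w * y2 = (ψ a * (X2 b * (X1 c * φ d))) * (g ^ m * g1 ^ n) := by
    rw [← hnf, ← hmn]; group
  rw [hxe] at hx ⊢
  rw [map_mul, map_mul, map_mul, map_mul, h0, h7, p1, p2, pH] at hx
  have hm2 : r7 a * (r2 b * (r1 c * r0 d)) *
      rH ((z ^ m : Fˣ) : F) ((z ^ n : Fˣ) : F) (((z ^ m : Fˣ) : F)⁻¹) (((z ^ n : Fˣ) : F)⁻¹) = 1 :=
    congrArg Subtype.val hx
  have e00 := congrFun (congrFun hm2 (Sum.inl 0)) (Sum.inl 0)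
  have e11 := congrFun (congrFun hm2 (Sum.inl 1)) (Sum.inl 1)
  have e01 := congrFun (congrFun hm2 (Sum.inl 0)) (Sum.inl 1)
  have f11 := congrFun (congrFun hm2 (Sum.inl 1)) (Sum.inr 1)
  have f10 := congrFun (congrFun hm2 (Sum.inl 1)) (Sum.inr 0)
  have f00 := congrFun (congrFun hm2 (Sum.inl 0)) (Sum.inr 0)
  simp [r0, r1, r2, r7, rH, Matrix.mul_apply, Fintype.sum_sum_type, Fin.sum_univ_two]
    at e00 e11 e01 f11 f10 f00
  have hzN : ζ ^ (orderOf z) = 1 := by
    rw [← hz, ← Units.val_pow_eq_pow_val, pow_orderOf_eq_one]; rfl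
  obtain ⟨G0, G1⟩ := S.g_pow hzN
  have zm : z ^ m = 1 := Units.ext (by simpa using e00)
  have zn : z ^ n = 1 := Units.ext (by simpa using e11)
  obtain ⟨k, hk⟩ := orderOf_dvd_iff_zpow_eq_one.mpr zm
  obtain ⟨k', hk'⟩ := orderOf_dvd_iff_zpow_eq_one.mpr zn
  have gm : g ^ m = 1 := by rw [hk, _root_.zpow_mul, zpow_natCast, G0, _root_.one_zpow]
  have gn : g1 ^ n = 1 := by rw [hk', _root_.zpow_mul, zpow_natCast, G1, _root_.one_zpow]
  rw [e11] at e01 f11
  rw [e00] at f10 f00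
  simp only [one_ne_zero, or_false] at e01 f11 f10 f00
  rw [e01, f10] at f00
  simp only [mul_zero, neg_zero, add_zero] at f00
  rw [gm, gn, e01, f11, f10, f00, phi_zero S.addφ, phi_zero S.addψ, phi_zero S.add1,
    phi_zero S.add2]
  simp

end S4

end Cfsg.Agent.Lib.Helper43P4
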