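import Cfsg.Agent.Lib.Helper43P4G
import Cfsg.Agent.Lib.Helper7SpCenter
import Cfsg.Agent.S0765

set_option autoImplicit false
set_option linter.unusedSimpArgs false
set_option linter.unusedSectionVars false
set_option linter.unreachableTactic false
set_option linter.unusedTactic false

namespace Cfsg.Agent.Lib.Helper43P4

open Cfsg.Agent.Lib.Helper43Pres Cfsg.Agent.Lib.Helper43P3 Matrix
open Cfsg.Agent.Lib.Helper17Symp2 Cfsg.Agent.Lib.Helper7Sp

variable {F : Type*} [Field F]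

/-- a vector with given coordinates -/
def vec (a b c d : F) : Fin 2 ⊕ Fin 2 → F := Sum.elim ![a, b] ![c, d]

theorem eq_vec (w : Fin 2 ⊕ Fin 2 → F) :
    w = vec (w (Sum.inl 0)) (w (Sum.inl 1)) (w (Sum.inr 0)) (w (Sum.inr 1)) := by
  ext (i | i) <;> fin_cases i <;> simp [vec]

theorem r0_vec (x a b c d : F) : r0 x *ᵥ vec a b c d = vec (a + x * c) b c d := by
  ext (i | i) <;> fin_cases i <;>
    simp [r0, vec, Matrix.mulVec, dotProduct, Fintype.sum_sum_type, Fin.sum_univ_two]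
theorem r7_vec (x a b c d : F) : r7 x *ᵥ vec a b c d = vec (a + x * b) b c (d - x * c) := by
  ext (i | i) <;> fin_cases i <;>
    simp [r7, vec, Matrix.mulVec, dotProduct, Fintype.sum_sum_type, Fin.sum_univ_two] <;> ring
theorem r1_vec (x a b c d : F) : r1 x *ᵥ vec a b c d = vec (a - x * d) (b - x * c) c d := by
  ext (i | i) <;> fin_cases i <;>
    simp [r1, vec, Matrix.mulVec, dotProduct, Fintype.sum_sum_type, Fin.sum_univ_two] <;> ring
theorem r3_vec (x a b c d : F) : r3 x *ᵥ vec a b c d = vec a (b + x * a) (c - x * d) d := by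
  ext (i | i) <;> fin_cases i <;>
    simp [r3, vec, Matrix.mulVec, dotProduct, Fintype.sum_sum_type, Fin.sum_univ_two] <;> ring
theorem r4_vec (x a b c d : F) : r4 x *ᵥ vec a b c d = vec a b (c - x * a) d := by
  ext (i | i) <;> fin_cases i <;>
    simp [r4, vec, Matrix.mulVec, dotProduct, Fintype.sum_sum_type, Fin.sum_univ_two] <;> ring
theorem r5_vec (x a b c d : F) : r5 x *ᵥ vec a b c d = vec a b (c - x * b) (d - x * a) := by
  ext (i | i) <;> fin_cases i <;>
    simp [r5, vec, Matrix.mulVec, dotProduct, Fintype.sum_sum_type, Fin.sum_univ_two] <;> ring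

theorem tv_vec (a c : F) : tv 2 (vec a 0 0 0) c = M0 (a ^ 2 * c) := by
  apply Subtype.ext
  show Cfsg.sympTransvection 2 (vec a 0 0 0) c = r0 (a ^ 2 * c)
  ext (i | i) (j | j) <;> fin_cases i <;> fin_cases j <;>
    simp [Cfsg.sympTransvection, r0, vec, Matrix.vecMulVec_apply, Matrix.J, Matrix.mulVec, dotProduct,
      Fintype.sum_sum_type, Fin.sum_univ_two] <;> ring

/-- reducibility of a vector to a multiple of the first basis vector -/
def Good (K : Subgroup (Sp4 F)) (w : Fin 2 ⊕ Fin 2 → F) : Prop :=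
  ∃ k ∈ K, ∃ a : F, (k : Mat4 F) *ᵥ w = vec a 0 0 0

theorem good_step {K : Subgroup (Sp4 F)} {k : Sp4 F} (hk : k ∈ K) {w : Fin 2 ⊕ Fin 2 → F}
    (h : Good K ((k : Mat4 F) *ᵥ w)) : Good K w := by
  obtain ⟨k', hk', a, ha⟩ := h
  refine ⟨k' * k, K.mul_mem hk' hk, a, ?_⟩
  rw [← ha, Matrix.mulVec_mulVec]; rfl

theorem good_all {K : Subgroup (Sp4 F)} (k0 : ∀ a, M0 a ∈ K) (k1 : ∀ a, M1 a ∈ K)
    (k3 : ∀ a, M3 a ∈ K) (k4 : ∀ a, M4 a ∈ K) (k5 : ∀ a, M5 a ∈ K) (k7 : ∀ a, M7 a ∈ K)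
    (w : Fin 2 ⊕ Fin 2 → F) : Good K w := by
  have g1 : ∀ a, Good K (vec a 0 0 0) := fun a => ⟨1, K.one_mem, a, by simp⟩
  have g2 : ∀ a c, a ≠ 0 → Good K (vec a 0 c 0) := by
    intro a c ha
    apply good_step (k4 (c / a))
    show Good K (r4 (c / a) *ᵥ vec a 0 c 0)
    rw [r4_vec]
    have : c - c / a * a = 0 := by field_simp; ring
    rw [this]; exact g1 a
  have g3 : ∀ a c d, a ≠ 0 → Good K (vec a 0 c d) := by
    intro a c d ha
    apply good_step (k5 (d / a))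
    show Good K (r5 (d / a) *ᵥ vec a 0 c d)
    rw [r5_vec]
    have : d - d / a * a = 0 := by field_simp; ring
    rw [this]; exact g2 a _ ha
  have g4 : ∀ a b c d, a ≠ 0 → Good K (vec a b c d) := by
    intro a b c d ha
    apply good_step (k3 (-b / a))
    show Good K (r3 (-b / a) *ᵥ vec a b c d)
    rw [r3_vec]
    have : b + -b / a * a = 0 := by field_simp; ring
    rw [this]; exact g3 a _ _ ha
  rw [eq_vec w]
  generalize w (Sum.inl 0) = a
  generalize w (Sum.inl 1) = b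
  generalize w (Sum.inr 0) = c
  generalize w (Sum.inr 1) = d
  by_cases ha : a = 0
  · subst ha
    by_cases hc : c = 0
    · subst hc
      by_cases hb : b = 0
      · subst hb
        by_cases hd : d = 0
        · subst hd; exact g1 0
        · apply good_step (k1 (-1))
          show Good K (r1 (-1) *ᵥ vec 0 0 0 d)
          rw [r1_vec]
          exact g4 _ _ _ _ (by simpa using hd)
      · apply good_step (k7 1)
        show Good K (r7 1 *ᵥ vec 0 b 0 d)
        rw [r7_vec]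
        exact g4 _ _ _ _ (by simpa using hb)
    · apply good_step (k0 1)
      show Good K (r0 1 *ᵥ vec 0 b c d)
      rw [r0_vec]
      exact g4 _ _ _ _ (by simpa using hc)
  · exact g4 _ _ _ _ ha

theorem sp4_gen (p : ℕ) [Fact p.Prime] [Finite F] [Algebra (ZMod p) F] (z : Fˣ)
    (ha : Algebra.adjoin (ZMod p) {(z : F)} = ⊤)
    (ha2 : Algebra.adjoin (ZMod p) {(z : F) ^ 2} = ⊤) :
    Subgroup.closure ({M0 (1 : F), M7 1, MH z 1, MT, MS} : Set (Sp4 F)) = ⊤ := by
  haveI : Fintype F := Fintype.ofFinite F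
  set K := Subgroup.closure ({M0 (1 : F), M7 1, MH z 1, MT, MS} : Set (Sp4 F)) with hK
  have m0 : M0 (1 : F) ∈ K := Subgroup.subset_closure (by simp)
  have m7 : M7 (1 : F) ∈ K := Subgroup.subset_closure (by simp)
  have mH : MH z 1 ∈ K := Subgroup.subset_closure (by simp)
  have mT : (MT : Sp4 F) ∈ K := Subgroup.subset_closure (by simp)
  have mS : (MS : Sp4 F) ∈ K := Subgroup.subset_closure (by simp)
  have k0 : ∀ a : F, M0 a ∈ K := by
    intro a
    obtain ⟨L, rfl⟩ := exists_evL p ha2 a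
    have e1 := W_phi (φ := (M0 : F → Sp4 F)) M0_add (g := MH z 1) (a := (z : F) ^ 2)
      (fun a => conj_of_mul (MH_0 z 1 a)) 1 L
    rw [mul_one] at e1
    rw [← e1]
    exact W_mem K m0 mH L
  have k7 : ∀ a : F, M7 a ∈ K := by
    intro a
    obtain ⟨L, rfl⟩ := exists_evL p ha a
    have e1 := W_phi (φ := (M7 : F → Sp4 F)) M7_add (g := MH z 1) (a := (z : F))
      (fun a => by
        have := conj_of_mul (MH_7 z 1 a)
        simpa using this) 1 L
    rw [mul_one] at e1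
    rw [← e1]
    exact W_mem K m7 mH L
  have k3 : ∀ a : F, M3 a ∈ K := by
    intro a; rw [← Y3_M]
    exact K.mul_mem (K.mul_mem mS (k7 a)) (K.inv_mem mS)
  have k4 : ∀ a : F, M4 a ∈ K := by
    intro a; rw [← Y4_M]
    exact K.mul_mem (K.mul_mem mT (k0 a)) (K.inv_mem mT)
  have k5 : ∀ a : F, M5 a ∈ K := by
    intro a; rw [← Y5_M]
    exact K.mul_mem (K.mul_mem mT (k7 a)) (K.inv_mem mT)
  have k1 : ∀ a : F, M1 a ∈ K := by
    intro a; rw [← Y1_M]
    have : (MS : Sp4 F) * MT * MS⁻¹ ∈ K := K.mul_mem (K.mul_mem mS mT) (K.inv_mem mS)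
    exact K.mul_mem (K.mul_mem this (k7 a)) (K.inv_mem this)
  rw [eq_top_iff, ← Cfsg.Agent.S0765.result 2, Subgroup.closure_le]
  rintro A ⟨w, c, hA⟩
  have hA' : A = tv 2 w c := Subtype.ext hA
  obtain ⟨k, hk, a, hka⟩ := good_all k0 k1 k3 k4 k5 k7 w
  have h1 := conj_tv k w c
  rw [hka, tv_vec] at h1
  have h2 : tv 2 w c = k⁻¹ * M0 (a ^ 2 * c) * k := by rw [← h1]; group
  show A ∈ K
  rw [hA', h2]
  exact K.mul_mem (K.mul_mem (K.inv_mem hk) (k0 _)) hk

/-- the centre -/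
theorem center_cases (x : Sp4 F) (hx : x ∈ Subgroup.center (Sp4 F)) :
    x = 1 ∨ x = MH (-1) (-1) := by
  have hs := Cfsg.Agent.Lib.Helper7SpCenter.eq_scalar_of_fix x.1
    (Cfsg.Agent.Lib.Helper7SpCenter.fix_of_mem_center x hx) (Sum.inl ⟨0, by norm_num⟩)
  set l := x.1 (Sum.inl ⟨0, by norm_num⟩) (Sum.inl ⟨0, by norm_num⟩) with hl
  have h2 : l ^ 2 = 1 := by
    rw [← Cfsg.Agent.Lib.Helper7SpCenter.scalar_mem_iff (m := 2) (by norm_num), ← hs]
    exact x.2
  rcases sq_eq_one_iff.1 h2 with h | h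
  · left
    apply Subtype.ext
    show x.1 = 1
    rw [hs, h]; simp
  · right
    apply Subtype.ext
    show x.1 = rH ((-1 : Fˣ) : F) ((-1 : Fˣ) : F) (((-1 : Fˣ) : F)⁻¹) (((-1 : Fˣ) : F)⁻¹)
    rw [hs, h]
    ext (i | i) (j | j) <;> fin_cases i <;> fin_cases j <;> simp [rH, Matrix.scalar_apply]

theorem neg_mem_center : MH (-1 : Fˣ) (-1) ∈ Subgroup.center (Sp4 F) := by
  rw [Subgroup.mem_center_iff]
  intro g
  have h : (MH (-1 : Fˣ) (-1) : Sp4 F).1 = -1 := by
    show rH ((-1 : Fˣ) : F) ((-1 : Fˣ) : F) (((-1 : Fˣ) : F)⁻¹) (((-1 : Fˣ) : F)⁻¹) = -1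
    ext (i | i) (j | j) <;> fin_cases i <;> fin_cases j <;> simp [rH]
  apply Subtype.ext
  show g.1 * (MH (-1 : Fˣ) (-1) : Sp4 F).1 = (MH (-1 : Fˣ) (-1) : Sp4 F).1 * g.1
  rw [h]; simp

end Cfsg.Agent.Lib.Helper43P4
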