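import Cfsg.Agent.Lib.Helper43P4H

set_option autoImplicit false
set_option linter.unusedSimpArgs false
set_option linter.unusedSectionVars false

namespace Cfsg.Agent.Lib.Helper43P4

open Cfsg.Agent.Lib.Helper43Pres Cfsg.Agent.Lib.Helper43P3 Polynomial

/-- numerical parameters of the presentation -/
structure Par where
  p : ℕ
  l : ℕ
  k : ℕ
  c : ℕ
  d : ℕ
  k' : ℕ
  c0 : ℕ
  d0 : ℕ
  e : ℕ
  Lm : List ℕ
  L1 : List ℕ
  L2 : List ℕ
  L3 : List ℕ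
  Lm' : List ℕ

section Rels

variable {G : Type*} [Group G]

def c1rel (v s T1 A B : G) : G :=
  v * (s * A * s⁻¹) * v⁻¹ * (s * A * s⁻¹)⁻¹ * (A * (T1 * B⁻¹ * T1⁻¹))⁻¹
def c2rel (v T1 A B : G) : G :=
  v * (T1 * B * T1⁻¹) * v⁻¹ * (T1 * B * T1⁻¹)⁻¹ * (A * A)
def c3rel (v A : G) : G := v * A * (A * v)⁻¹

/-- the second block of relators -/
def relsB (P : Par) (u v g t s x : G) : List G :=
  [v ^ P.p,
   v * (g * v * g⁻¹) * (g * v * g⁻¹ * v)⁻¹,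
   g ^ P.k' * v * (g ^ P.k')⁻¹ * (v ^ P.c0 * (g * v * g⁻¹) ^ P.d0)⁻¹,
   W v g P.Lm',
   s * s,
   u * (s * u * s⁻¹) * ((s * u * s⁻¹) * u)⁻¹,
   (s * g * s⁻¹) * u * (s * g * s⁻¹)⁻¹ * u⁻¹,
   (s * t * s⁻¹) * u * (s * t * s⁻¹)⁻¹ * u⁻¹,
   g * (s * g * s⁻¹) * ((s * g * s⁻¹) * g)⁻¹,
   t * (s * g * s⁻¹) * ((s * g * s⁻¹) * t)⁻¹,
   t * (s * t * s⁻¹) * ((s * t * s⁻¹) * t)⁻¹,
   (g * (s * g * s⁻¹)) * v * (g * (s * g * s⁻¹))⁻¹ * v⁻¹,
   v * s * ((s * v * s⁻¹) * (s * g * s⁻¹) ^ P.e * v)⁻¹,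
   (s * t * (s * t * s⁻¹)) * v * (s * t * (s * t * s⁻¹))⁻¹ * v,
   c1rel v s (s * t * s⁻¹) u v,
   c1rel v s (s * t * s⁻¹) (W u (g ^ P.l) P.L1) (g * v * g⁻¹),
   c2rel v (s * t * s⁻¹) u v,
   c2rel v (s * t * s⁻¹) (W u (g ^ P.l) P.L1) (g * v * g⁻¹),
   c3rel v u,
   c3rel v (W u (g ^ P.l) P.L1),
   x]

/-- the twenty-nine relators -/
def rels4 (P : Par) (u v g t s x : G) : List G :=
  relsOdd P.p P.l P.k P.c P.d P.Lm P.L1 P.L2 P.L3 u g t ++ relsB P u v g t s x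

theorem rels4_length (P : Par) (u v g t s x : G) : (rels4 P u v g t s x).length = 29 := by
  simp [rels4, relsOdd, relsB]

theorem rels4_map {G' : Type*} [Group G'] (f : G →* G') (P : Par) (u v g t s x : G) :
    (rels4 P u v g t s x).map f = rels4 P (f u) (f v) (f g) (f t) (f s) (f x) := by
  rw [rels4, List.map_append, relsOdd_map, rels4]
  congr 1
  simp [relsB, map_W, c1rel, c2rel, c3rel]

end Rels

/-- field data -/
structure FData (P : Par) {F : Type*} [Field F] [Algebra (ZMod P.p) F] (ζ : F) : Prop where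
  D : OddData P.p ζ P.l P.k P.c P.d P.Lm P.L1 P.L2 P.L3
  ζ_ne : ζ ≠ 0
  he : ζ ^ P.e = -1
  ha : Algebra.adjoin (ZMod P.p) {ζ} = ⊤
  ha2 : Algebra.adjoin (ZMod P.p) {ζ ^ 2} = ⊤
  hk' : ζ ^ P.k' = (P.c0 : F) + (P.d0 : F) * ζ
  hLm' : pL P.p P.Lm' = minpoly (ZMod P.p) ζ

section Equiv

variable {F : Type*} [Field F] {Γ : Type*} [Group Γ]

/-- the relators hold in a model -/
theorem rels4_of_S4 {P : Par} [Algebra (ZMod P.p) F] [CharP F P.p] {φ ψ : F → Γ} {g t s : Γ}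
    {ζ : F} (E : FData P ζ) (S : S4 φ ψ g t s ζ P.e) :
    ∀ r ∈ rels4 P (φ 1) (ψ 1) g t s 1, r = 1 := by
  have hg1 : g * ψ 1 * g⁻¹ = ψ ζ := by rw [S.gψ 1, mul_one]
  have hgp : ∀ i : ℕ, g ^ i * ψ 1 * (g ^ i)⁻¹ = ψ (ζ ^ i) := by
    intro i; rw [S.gψ.pow i 1, mul_one]
  have hgl : ∀ x, g ^ P.l * φ x * (g ^ P.l)⁻¹ = φ (ζ ^ (2 * P.l) * x) := by
    intro x; rw [S.pre0.conj_pow, ← pow_mul]
  have hW : W (φ 1) (g ^ P.l) P.L1 = φ ζ := by
    rw [W_phi S.addφ hgl, mul_one, E.D.hL1]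
  have C1 : ∀ i, i < 2 → c1rel (ψ 1) s (s * t * s⁻¹) (φ (ζ ^ i)) (ψ (ζ ^ i)) = 1 := by
    intro i hi
    have := S.C1 i hi
    unfold Y2 Y1 at this
    rw [phi_neg S.addψ] at this
    unfold c1rel
    rw [this, mul_inv_cancel]
  have C2 : ∀ i, i < 2 → c2rel (ψ 1) (s * t * s⁻¹) (φ (ζ ^ i)) (ψ (ζ ^ i)) = 1 := by
    intro i hi
    have := S.C2 i hi
    unfold Y1 at this
    unfold c2rel
    rw [this, ← S.addφ, ← S.addφ]
    have : -(2 * ζ ^ i) + (ζ ^ i + ζ ^ i) = 0 := by ring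
    rw [this, phi_zero S.addφ]
  have C3 : ∀ i, i < 2 → c3rel (ψ 1) (φ (ζ ^ i)) = 1 := by
    intro i hi
    unfold c3rel
    rw [S.C3 i hi, mul_inv_cancel]
  intro r hr
  rw [rels4, List.mem_append] at hr
  rcases hr with hr | hr
  · exact relsOdd_of_model E.D S.pre0 S.R0 S.R1 r hr
  simp only [relsB, List.mem_cons, List.not_mem_nil, or_false] at hr
  rcases hr with rfl | rfl | rfl | rfl | rfl | rfl | rfl | rfl | rfl | rfl | rfl | rfl | rfl | rfl |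
    rfl | rfl | rfl | rfl | rfl | rfl | rfl
  · rw [← phi_nat S.addψ, CharP.cast_eq_zero, zero_mul, phi_zero S.addψ]
  · rw [hg1, phi_comm S.addψ, mul_inv_cancel]
  · rw [hgp, hg1, E.hk', S.addψ, ← phi_nat S.addψ, ← phi_nat S.addψ, mul_one, mul_inv_cancel]
  · rw [W_phi S.addψ S.gψ, evL_Lm E.hLm', zero_mul, phi_zero S.addψ]
  · exact S.ss
  · have := S.φφ 1 1
    unfold Y2 at this
    rw [this, mul_inv_cancel]
  · rw [S.g1φ 1, mul_one, mul_inv_cancel]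
  · rw [S.t1φ 1, mul_one, mul_inv_cancel]
  · rw [S.gg, mul_inv_cancel]
  · rw [S.tg1, mul_inv_cancel]
  · rw [S.tt1, mul_inv_cancel]
  · rw [S.kk_7 1, mul_one, mul_inv_cancel]
  · have := S.st
    unfold Y3 at this
    rw [this, mul_inv_cancel]
  · rw [S.stab 1, mul_one, phi_neg S.addψ, inv_mul_cancel]
  · simpa using C1 0 (by norm_num)
  · rw [hW, hg1]; simpa using C1 1 (by norm_num)
  · simpa using C2 0 (by norm_num)
  · rw [hW, hg1]; simpa using C2 1 (by norm_num)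
  · simpa using C3 0 (by norm_num)
  · rw [hW]; simpa using C3 1 (by norm_num)
  · rfl

theorem conj_conj_of_sq {s : Γ} (ss : s * s = 1) (x : Γ) : s * (s * x * s⁻¹) * s⁻¹ = x := by
  have : s * (s * x * s⁻¹) * s⁻¹ = (s * s) * x * (s * s)⁻¹ := by group
  rw [this, ss]; simp

/-- the relators produce a model -/
theorem S4_of_rels4 {P : Par} [Fact P.p.Prime] [Finite F] [Algebra (ZMod P.p) F]
    {u v g t s x : Γ} {ζ : F} (E : FData P ζ)
    (hrel : ∀ r ∈ rels4 P u v g t s x, r = 1)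
    (rC : ∀ j : ℕ, Commute u ((g ^ P.l) ^ j * u * ((g ^ P.l) ^ j)⁻¹))
    (rC' : ∀ j : ℕ, Commute v (g ^ j * v * (g ^ j)⁻¹)) :
    x = 1 ∧ ∃ φ ψ : F → Γ, φ 1 = u ∧ ψ 1 = v ∧ S4 φ ψ g t s ζ P.e := by
  rw [rels4, List.forall_mem_append] at hrel
  obtain ⟨hrelA, hrelB⟩ := hrel
  simp only [relsOdd, List.mem_cons, List.not_mem_nil, or_false, forall_eq_or_imp, forall_eq]
    at hrelA
  obtain ⟨r1, r2, r2', r3, -, -, r4c, r5⟩ := hrelA
  rw [mul_inv_eq_one] at r2 r2' r4c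
  have r3' : t * g * t⁻¹ = g⁻¹ := eq_inv_of_mul_eq_one_left r3
  obtain ⟨φ, hφ1, P0, hW⟩ := pre0_of_rels P.p ζ E.ζ_ne P.l P.Lm P.L3 E.D.ha E.D.hLm E.D.hL3
    u g t r1 r3' rC r4c r5
  have H0 : RR φ g t ζ 0 := by
    unfold RR
    simp only [pow_zero, inv_one, one_mul, hφ1]
    exact r2
  have H1 : RR φ g t ζ 1 := by
    unfold RR
    simp only [pow_one]
    rw [hW, hW, E.D.hL1, E.D.hL2] at r2'
    exact r2'
  simp only [relsB, List.mem_cons, List.not_mem_nil, or_false, forall_eq_or_imp, forall_eq]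
    at hrelB
  obtain ⟨b1, -, -, b4, ss, q1, q2, q3, q4, q5, q6, q7, q8, q9, k1, k2, k3, k4, k5, k6, hx⟩ := hrelB
  rw [mul_inv_eq_one] at q1 q2 q3 q4 q5 q6 q7 q8
  obtain ⟨ψ0, h1, h2, h3, h4⟩ := exists_psi P.p v g b1 rC'
  have hm : ψ0 (minpoly (ZMod P.p) ζ) = 1 := by rw [← E.hLm', psi_pL P.p h1 h2 h3, b4]
  obtain ⟨ψ, a1, a2, a3⟩ := exists_phi P.p ζ E.ha h1 h2 h3 h4 hm
  haveI : Fintype F := Fintype.ofFinite F
  have hsurj1 : ∀ x : F, ∃ L, evL ζ L = x := exists_evL P.p E.ha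
  have hsurj2 : ∀ x : F, ∃ L, evL (ζ ^ 2) L = x := exists_evL P.p E.ha2
  have addφ := P0.add
  have gφ : Maps g φ φ (ζ ^ 2) := P0.conj
  have gψ : Maps g ψ ψ ζ := a3
  have sg1 : s * (s * g * s⁻¹) * s⁻¹ = g := conj_conj_of_sq ss g
  have o : (1 : F) ≠ 0 := one_ne_zero
  have hζ := E.ζ_ne
  -- the torus element `g1` on `φ`
  have g1φ : Maps (s * g * s⁻¹) φ φ 1 :=
    maps_ext_one addφ addφ gφ gφ q4.symm (by rw [hφ1]; exact q2) hsurj2
  have t1g : (s * t * s⁻¹) * g = g * (s * t * s⁻¹) := by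
    have := congrArg (fun x => s * x * s⁻¹) q5
    calc (s * t * s⁻¹) * g = (s * t * s⁻¹) * (s * (s * g * s⁻¹) * s⁻¹) := by rw [sg1]
      _ = s * (t * (s * g * s⁻¹)) * s⁻¹ := by group
      _ = s * ((s * g * s⁻¹) * t) * s⁻¹ := this
      _ = (s * (s * g * s⁻¹) * s⁻¹) * (s * t * s⁻¹) := by group
      _ = _ := by rw [sg1]
  have t1φ : Maps (s * t * s⁻¹) φ φ 1 :=
    maps_ext_one addφ addφ gφ gφ t1g (by rw [hφ1]; exact q3) hsurj2
  have s_0 : Maps s φ (Y2 φ s) 1 := by intro a; simp [Y2]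
  have add2 : ∀ a b, Y2 φ s (a + b) = Y2 φ s a * Y2 φ s b := add_conj addφ s
  have g1_2 : Maps (s * g * s⁻¹) (Y2 φ s) (Y2 φ s) (ζ ^ 2) := gφ.transport s_0 o
  have step1 : Maps (s * u * s⁻¹) φ φ 1 := by
    refine maps_ext_one addφ addφ gφ gφ ?_ ?_ hsurj2
    · have hc : u * (s * g * s⁻¹) = (s * g * s⁻¹) * u := by
        calc u * (s * g * s⁻¹) = ((s * g * s⁻¹) * u * (s * g * s⁻¹)⁻¹) * (s * g * s⁻¹) := by rw [q2]
          _ = _ := by group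
      calc (s * u * s⁻¹) * g = (s * u * s⁻¹) * (s * (s * g * s⁻¹) * s⁻¹) := by rw [sg1]
        _ = s * (u * (s * g * s⁻¹)) * s⁻¹ := by group
        _ = s * ((s * g * s⁻¹) * u) * s⁻¹ := by rw [hc]
        _ = (s * (s * g * s⁻¹) * s⁻¹) * (s * u * s⁻¹) := by group
        _ = _ := by rw [sg1]
    · rw [hφ1, ← q1]; group
  have φφ : ∀ a b, φ a * Y2 φ s b = Y2 φ s b * φ a := by
    intro a b
    have hM : Maps (φ a) (Y2 φ s) (Y2 φ s) 1 := by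
      refine maps_ext_one add2 add2 g1_2 g1_2 ?_ ?_ hsurj2
      · have := g1φ a
        rw [one_mul] at this
        calc φ a * (s * g * s⁻¹) = ((s * g * s⁻¹) * φ a * (s * g * s⁻¹)⁻¹) * (s * g * s⁻¹) := by
              rw [this]
          _ = _ := by group
      · have := step1 a
        rw [one_mul] at this
        have e1 : Y2 φ s 1 = s * u * s⁻¹ := by unfold Y2; rw [hφ1]
        rw [e1]
        calc φ a * (s * u * s⁻¹) * (φ a)⁻¹
            = ((s * u * s⁻¹) * φ a * (s * u * s⁻¹)⁻¹) * (s * u * s⁻¹) * (φ a)⁻¹ := by rw [this]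
          _ = _ := by group
    have := hM b
    rw [one_mul] at this
    calc φ a * Y2 φ s b = (φ a * Y2 φ s b * (φ a)⁻¹) * φ a := by group
      _ = _ := by rw [this]
  have kkψ : Maps (g * (s * g * s⁻¹)) ψ ψ 1 := by
    refine maps_ext_one a1 a1 gψ gψ ?_ (by rw [a2]; exact q7) hsurj1
    rw [mul_assoc, ← q4]
  have g1ψ : Maps (s * g * s⁻¹) ψ ψ ζ⁻¹ :=
    ((gψ.inv hζ).comp kkψ).congr (by group) (mul_one _)
  have stab : Maps (s * t * (s * t * s⁻¹)) ψ ψ (-1) := by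
    refine maps_ext_one a1 a1 gψ ((g1ψ.inv (inv_ne_zero hζ)).congr rfl (inv_inv _)) ?_ ?_ hsurj1
    · have e1 : t * g = g⁻¹ * t := by
        calc t * g = (t * g * t⁻¹) * t := by group
          _ = _ := by rw [r3']
      calc s * t * (s * t * s⁻¹) * g = s * t * ((s * t * s⁻¹) * g) := by group
        _ = s * (t * g) * (s * t * s⁻¹) := by rw [t1g]; group
        _ = _ := by rw [e1]; group
    · rw [a2, phi_neg a1, a2]
      exact eq_inv_of_mul_eq_one_left q9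
  have hWζ : W u (g ^ P.l) P.L1 = φ ζ := by rw [hW, E.D.hL1]
  have hgv : g * v * g⁻¹ = ψ ζ := by rw [← a2, gψ 1, mul_one]
  rw [hWζ, hgv] at k2 k4
  rw [hWζ] at k6
  have C1 : ∀ A : F, c1rel v s (s * t * s⁻¹) (φ A) (ψ A) = 1 →
      ψ 1 * Y2 φ s A * (ψ 1)⁻¹ * (Y2 φ s A)⁻¹ = φ A * Y1 ψ t s (-A) := by
    intro A h
    unfold c1rel at h
    rw [mul_inv_eq_one] at h
    unfold Y2 Y1
    rw [phi_neg a1, a2]; exact h
  have C2 : ∀ A : F, c2rel v (s * t * s⁻¹) (φ A) (ψ A) = 1 →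
      ψ 1 * Y1 ψ t s A * (ψ 1)⁻¹ * (Y1 ψ t s A)⁻¹ = φ (-(2 * A)) := by
    intro A h
    unfold c2rel at h
    unfold Y1
    rw [a2, eq_inv_of_mul_eq_one_left h, ← addφ, ← phi_neg addφ]
    congr 1; ring
  have C3 : ∀ A : F, c3rel v (φ A) = 1 → ψ 1 * φ A = φ A * ψ 1 := by
    intro A h
    unfold c3rel at h
    rw [mul_inv_eq_one] at h
    rw [a2]; exact h
  refine ⟨hx, φ, ψ, hφ1, a2, ⟨addφ, a1, hζ, E.he, ss, gφ, gψ, r3', H0, H1, q4, q5, q6, g1φ, t1φ, φφ,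
    g1ψ, ?_, stab, ?_, ?_, ?_⟩⟩
  · unfold Y3; rw [a2]; exact q8
  · intro i hi
    interval_cases i
    · rw [pow_zero]; apply C1; rw [hφ1, a2]; exact k1
    · rw [pow_one]; exact C1 _ k2
  · intro i hi
    interval_cases i
    · rw [pow_zero]; apply C2; rw [hφ1, a2]; exact k3
    · rw [pow_one]; exact C2 _ k4
  · intro i hi
    interval_cases i
    · rw [pow_zero]; apply C3; rw [hφ1]; exact k5
    · rw [pow_one]; exact C3 _ k6

end Equiv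

end Cfsg.Agent.Lib.Helper43P4
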