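import Cfsg.Agent.Lib.Helper43P4I
import Cfsg.Agent.S2287

set_option autoImplicit false
set_option linter.unusedSimpArgs false
set_option linter.unusedSectionVars false

namespace Cfsg.Agent.Lib.Helper43P4

open Cfsg.Agent.Lib.Helper43Pres Cfsg.Agent.Lib.Helper43P3 Polynomial

section Generic

variable {α : Type} [DecidableEq α] {G : Type*} [Group G]

/-- the injectivity hypothesis used for presentations -/
def InjHyp (Lw : List (FreeGroup α)) (f : FreeGroup α →* G) : Prop :=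
  ∀ (Γ : Type) [Group Γ] (π₀ : FreeGroup α →* Γ), Function.Surjective π₀ →
    (∀ r ∈ Lw, π₀ r = 1) → ∀ F' : Γ →* G, (∀ w, F' (π₀ w) = f w) → Function.Injective F'

theorem ker_le_of_inj (Lw : List (FreeGroup α)) (f : FreeGroup α →* G) (hf : ∀ r ∈ Lw, f r = 1)
    (hinj : InjHyp Lw f) (Γ : Type) [Group Γ] (π : FreeGroup α →* Γ) (hπ : ∀ r ∈ Lw, π r = 1)
    (w : FreeGroup α) (hw : f w = 1) : π w = 1 := by
  set rels : Set (FreeGroup α) := {r | r ∈ Lw} with hrels
  have hker : Subgroup.normalClosure rels ≤ f.ker := by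
    apply Subgroup.normalClosure_le_normal
    intro r hr
    exact hf r hr
  have hker' : Subgroup.normalClosure rels ≤ π.ker := by
    apply Subgroup.normalClosure_le_normal
    intro r hr
    exact hπ r hr
  let F' : PresentedGroup rels →* G := QuotientGroup.lift (Subgroup.normalClosure rels) f
    (fun x hx => hker hx)
  have hi := hinj (PresentedGroup rels) (PresentedGroup.mk rels)
    (PresentedGroup.mk_surjective rels)
    (fun r hr => PresentedGroup.one_of_mem hr) F' (fun w => rfl)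
  have h1 : F' (PresentedGroup.mk rels w) = F' 1 := by
    rw [map_one]; exact hw
  have h2 : PresentedGroup.mk rels w = 1 := hi h1
  have h3 : w ∈ Subgroup.normalClosure rels := (QuotientGroup.eq_one_iff w).mp h2
  exact hker' h3

theorem pres_quot (Lw : List (FreeGroup α)) (f : FreeGroup α →* G) (hf : ∀ r ∈ Lw, f r = 1)
    (hsurj : Function.Surjective f) (hinj : InjHyp Lw f) (zw : FreeGroup α) (Z : Subgroup G)
    [Z.Normal] (hz : f zw ∈ Z) (hZ : ∀ x ∈ Z, x = 1 ∨ x = f zw) :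
    ∃ rels : Finset (FreeGroup α), rels.card ≤ Lw.length + 1 ∧
      Nonempty (PresentedGroup (↑rels : Set (FreeGroup α)) ≃* G ⧸ Z) := by
  refine Cfsg.Agent.S2287.pres_iso_inj (zw :: Lw) ((QuotientGroup.mk' Z).comp f) ?_
    ((QuotientGroup.mk'_surjective Z).comp hsurj) ?_
  · intro r hr
    rcases List.mem_cons.mp hr with rfl | hr
    · rw [MonoidHom.comp_apply, QuotientGroup.mk'_apply, QuotientGroup.eq_one_iff]
      exact hz
    · rw [MonoidHom.comp_apply, hf r hr, map_one]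
  · intro Γ _ π₀ hπ hrel F' hF'
    rw [injective_iff_map_eq_one]
    intro x hx
    obtain ⟨w, rfl⟩ := hπ x
    rw [hF', MonoidHom.comp_apply, QuotientGroup.mk'_apply, QuotientGroup.eq_one_iff] at hx
    have hrel' : ∀ r ∈ Lw, π₀ r = 1 := fun r hr => hrel r (List.mem_cons_of_mem _ hr)
    have hzw : π₀ zw = 1 := hrel zw List.mem_cons_self
    rcases hZ _ hx with h | h
    · exact ker_le_of_inj Lw f hf hinj Γ π₀ hrel' w h
    · have h1 : f (w * zw⁻¹) = 1 := by rw [map_mul, map_inv, h, mul_inv_cancel]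
      have h2 := ker_le_of_inj Lw f hf hinj Γ π₀ hrel' _ h1
      rw [map_mul, map_inv, hzw, inv_one, mul_one] at h2
      exact h2

end Generic

section Six

theorem closure_of_surj6 {Γ : Type*} [Group Γ] (π : FreeGroup (Fin 6) →* Γ)
    (hπ : Function.Surjective π) :
    Subgroup.closure ({π (FreeGroup.of 0), π (FreeGroup.of 1), π (FreeGroup.of 2),
      π (FreeGroup.of 3), π (FreeGroup.of 4), π (FreeGroup.of 5)} : Set Γ) = ⊤ := by
  have h1 : Subgroup.closure (Set.range (FreeGroup.of : Fin 6 → FreeGroup (Fin 6))) = ⊤ :=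
    FreeGroup.closure_range_of (Fin 6)
  have h2 := congrArg (Subgroup.map π) h1
  rw [MonoidHom.map_closure, Subgroup.map_top_of_surjective π hπ] at h2
  rw [← h2]
  congr 1
  ext x
  simp only [Set.mem_insert_iff, Set.mem_singleton_iff, Set.mem_image, Set.mem_range,
    exists_exists_eq_and]
  constructor
  · rintro (rfl | rfl | rfl | rfl | rfl | rfl)
    exacts [⟨0, rfl⟩, ⟨1, rfl⟩, ⟨2, rfl⟩, ⟨3, rfl⟩, ⟨4, rfl⟩, ⟨5, rfl⟩]
  · rintro ⟨i, rfl⟩
    fin_cases i
    · left; rfl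
    · right; left; rfl
    · right; right; left; rfl
    · right; right; right; left; rfl
    · right; right; right; right; left; rfl
    · right; right; right; right; right; rfl

theorem lift_surj6 {G : Type*} [Group G] (a b c d e : G)
    (hgen : Subgroup.closure ({a, b, c, d, e} : Set G) = ⊤) :
    Function.Surjective (FreeGroup.lift ![a, b, c, d, e, 1]) := by
  rw [← MonoidHom.range_eq_top, FreeGroup.range_lift_eq_closure, eq_top_iff, ← hgen]
  apply Subgroup.closure_mono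
  rintro x (rfl | rfl | rfl | rfl | rfl)
  exacts [⟨0, rfl⟩, ⟨1, rfl⟩, ⟨2, rfl⟩, ⟨3, rfl⟩, ⟨4, rfl⟩]

theorem closure_drop_one {Γ : Type*} [Group Γ] {a b c d e x : Γ} (hx : x = 1)
    (h : Subgroup.closure ({a, b, c, d, e, x} : Set Γ) = ⊤) :
    Subgroup.closure ({a, b, c, d, e} : Set Γ) = ⊤ := by
  rw [eq_top_iff, ← h, Subgroup.closure_le]
  rintro y (rfl | rfl | rfl | rfl | rfl | hy)
  · exact Subgroup.subset_closure (by simp)
  · exact Subgroup.subset_closure (by simp)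
  · exact Subgroup.subset_closure (by simp)
  · exact Subgroup.subset_closure (by simp)
  · exact Subgroup.subset_closure (by simp)
  · rw [Set.mem_singleton_iff] at hy
    rw [hy, hx]; exact Subgroup.one_mem _

end Six

section Data

variable {F : Type*} [Field F] [Fintype F]

/-- data for the long root subgroup -/
theorem exists_long (p : ℕ) [Fact p.Prime] [CharP F p] [Algebra (ZMod p) F] {ζ : F} (hζ : ζ ≠ 0)
    (hgenζ : ∀ b : F, b ≠ 0 → ∃ j : ℕ, ζ ^ j = b) (hord : orderOf ζ = Fintype.card F - 1) :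
    ∃ l k c d : ℕ, Algebra.adjoin (ZMod p) {ζ ^ (2 * l)} = ⊤ ∧
      ζ ^ (2 * k) = (c : F) + (d : F) * ζ ^ (2 * l) ∧
      ∀ (Γ : Type) [Group Γ] (u h : Γ),
        u * (h ^ l * u * (h ^ l)⁻¹) * (h ^ l * u * (h ^ l)⁻¹ * u)⁻¹ = 1 →
        h ^ k * u * (h ^ k)⁻¹ * (u ^ c * (h ^ l * u * (h ^ l)⁻¹) ^ d)⁻¹ = 1 →
        ∀ j : ℕ, Commute u ((h ^ l) ^ j * u * ((h ^ l) ^ j)⁻¹) := by
  have hq : 2 ≤ Fintype.card F := Fintype.one_lt_card
  have hζN : ζ ^ (Fintype.card F - 1) = 1 := by rw [← hord]; exact pow_orderOf_eq_one ζ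
  have ha := adjoin_zeta_sq p hζ hord
  have ha' : Algebra.adjoin (ZMod p) {ζ ^ (2 * 1)} = ⊤ := by simpa using ha
  have exc : (∃ c : ℕ, ζ ^ (2 * 2) = (c : F)) → ∃ l k c d : ℕ,
      Algebra.adjoin (ZMod p) {ζ ^ (2 * l)} = ⊤ ∧
      ζ ^ (2 * k) = (c : F) + (d : F) * ζ ^ (2 * l) ∧
      ∀ (Γ : Type) [Group Γ] (u h : Γ),
        u * (h ^ l * u * (h ^ l)⁻¹) * (h ^ l * u * (h ^ l)⁻¹ * u)⁻¹ = 1 →
        h ^ k * u * (h ^ k)⁻¹ * (u ^ c * (h ^ l * u * (h ^ l)⁻¹) ^ d)⁻¹ = 1 →
        ∀ j : ℕ, Commute u ((h ^ l) ^ j * u * ((h ^ l) ^ j)⁻¹) := by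
    rintro ⟨c, hc⟩
    exact ⟨1, 2, c, 0, ha', by simpa using hc, fun Γ _ u h r4a r4b => rC_exc r4a r4b⟩
  rcases Nat.even_or_odd (Fintype.card F) with heven | hodd
  · rcases Nat.lt_or_ge 2 (Fintype.card F) with h2 | h2
    · haveI : CharP F 2 :=
        ringChar.of_eq (FiniteField.even_card_iff_char_two.mpr (Nat.even_iff.mp heven))
      have hgen2 := exists_even_pow hgenζ hord heven
      have h1 : 1 + ζ ^ 2 ≠ 0 := by
        intro h
        have h2' : ζ ^ 2 = 1 := by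
          have : ζ ^ 2 = -1 := eq_neg_of_add_eq_zero_right h
          rw [this, CharTwo.neg_eq]
        have := Nat.le_of_dvd (by omega) (orderOf_dvd_of_pow_eq_one h2')
        obtain ⟨m, hm⟩ := heven
        omega
      obtain ⟨k, hk⟩ := hgen2 _ h1
      exact ⟨1, k, 1, 1, ha', by simpa using hk, fun Γ _ u h r4a r4b => rC_generic r4a r4b⟩
    · apply exc
      have : Fintype.card F = 2 := le_antisymm h2 hq
      rw [this] at hζN
      refine ⟨1, ?_⟩
      have e : ζ ^ (2 * 2) = (ζ ^ (2 - 1)) ^ 4 := by ring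
      rw [e, hζN]; simp
  · by_cases hexc : 7 ≤ Fintype.card F ∧ Fintype.card F ≠ 9
    · obtain ⟨k, l, hk, hal⟩ := exists_kl p hζ hgenζ hord hodd hexc.1 hexc.2
      exact ⟨l, k, 1, 1, hal, by simpa using hk, fun Γ _ u h r4a r4b => rC_generic r4a r4b⟩
    · apply exc
      have hcases : Fintype.card F = 3 ∨ Fintype.card F = 5 ∨ Fintype.card F = 9 := by
        obtain ⟨m, hm⟩ := hodd
        by_contra hcon
        push Not at hcon
        apply hexc
        omega
      rcases hcases with h | h | h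
      · refine ⟨1, ?_⟩
        rw [h] at hζN
        have : ζ ^ (2 * 2) = (ζ ^ (3 - 1)) ^ 2 := by ring
        rw [this, hζN]; simp
      · refine ⟨1, ?_⟩
        rw [h] at hζN
        have : ζ ^ (2 * 2) = (ζ ^ (5 - 1)) := by ring
        rw [this, hζN]; simp
      · refine ⟨p - 1, ?_⟩
        rw [h] at hζN
        have h1 : ζ ^ 4 * ζ ^ 4 = 1 := by
          rw [← pow_add]; exact hζN
        have hp1 : 1 ≤ p := (Fact.out : p.Prime).one_lt.le
        rw [Nat.cast_sub hp1, CharP.cast_eq_zero, Nat.cast_one, zero_sub]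
        rcases mul_self_eq_one_iff.mp h1 with h' | h'
        · exact absurd h' (pow_ne_one_of_lt_orderOf (by norm_num) (by omega))
        · exact h'

/-- data for the short root subgroup -/
theorem exists_short (p : ℕ) [Fact p.Prime] [CharP F p] {ζ : F}
    (hgenζ : ∀ b : F, b ≠ 0 → ∃ j : ℕ, ζ ^ j = b) :
    ∃ k c0 d0 : ℕ, ζ ^ k = (c0 : F) + (d0 : F) * ζ ∧
      ∀ (Γ : Type) [Group Γ] (u g : Γ),
        u * (g * u * g⁻¹) * (g * u * g⁻¹ * u)⁻¹ = 1 →
        g ^ k * u * (g ^ k)⁻¹ * (u ^ c0 * (g * u * g⁻¹) ^ d0)⁻¹ = 1 →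
        ∀ j : ℕ, Commute u (g ^ j * u * (g ^ j)⁻¹) := by
  by_cases h1 : 1 + ζ = 0
  · have hp1 : 1 ≤ p := (Fact.out : p.Prime).one_lt.le
    refine ⟨1, p - 1, 0, ?_, fun Γ _ u g _ r3 => Cfsg.Agent.S2287.rC_exc r3⟩
    rw [Nat.cast_sub hp1, CharP.cast_eq_zero, Nat.cast_one, zero_sub, pow_one, Nat.cast_zero,
      zero_mul, add_zero]
    exact eq_neg_of_add_eq_zero_right h1
  · obtain ⟨k, hk⟩ := hgenζ _ h1
    exact ⟨k, 1, 1, by simpa using hk, fun Γ _ u g r2 r3 => Cfsg.Agent.S2287.rC_gen r2 r3⟩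

end Data

end Cfsg.Agent.Lib.Helper43P4
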