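import Mathlib

set_option autoImplicit false

namespace Cfsg.Agent.Lib.Helper43Pres

/-! ### Horner words -/

section Words

variable {G : Type*} [Group G]

/-- Horner word: `W u g [c0,c1,...] = u^c0 * g (u^c1 * g (...) g⁻¹) g⁻¹`. -/
def W (u g : G) : List ℕ → G
  | [] => 1
  | c :: L => u ^ c * (g * W u g L * g⁻¹)

@[simp] theorem W_nil (u g : G) : W u g [] = 1 := rfl
theorem W_cons (u g : G) (c : ℕ) (L : List ℕ) :
    W u g (c :: L) = u ^ c * (g * W u g L * g⁻¹) := rfl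

theorem map_W {G' : Type*} [Group G'] (f : G →* G') (u g : G) (L : List ℕ) :
    f (W u g L) = W (f u) (f g) L := by
  induction L with
  | nil => simp
  | cons c L ih => simp [W_cons, ih]

theorem W_mem (K : Subgroup G) {u g : G} (hu : u ∈ K) (hg : g ∈ K) (L : List ℕ) :
    W u g L ∈ K := by
  induction L with
  | nil => simp
  | cons c L ih =>
    rw [W_cons]
    exact K.mul_mem (K.pow_mem hu _) (K.mul_mem (K.mul_mem hg ih) (K.inv_mem hg))

end Words

/-- evaluation of a coefficient list at a ring element -/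
def evL {F : Type*} [Semiring F] (a : F) : List ℕ → F
  | [] => 0
  | c :: L => (c : F) + a * evL a L

@[simp] theorem evL_nil {F : Type*} [Semiring F] (a : F) : evL a [] = 0 := rfl
theorem evL_cons {F : Type*} [Semiring F] (a : F) (c : ℕ) (L : List ℕ) :
    evL a (c :: L) = (c : F) + a * evL a L := rfl

/-! ### additive maps into a group -/

section AddMaps

variable {F : Type*} [Ring F] {Γ : Type*} [Group Γ] {φ : F → Γ}

theorem phi_zero (hadd : ∀ x y, φ (x + y) = φ x * φ y) : φ 0 = 1 := by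
  have := hadd 0 0
  rw [add_zero] at this
  exact (mul_eq_left.mp this.symm)

theorem phi_neg (hadd : ∀ x y, φ (x + y) = φ x * φ y) (x : F) : φ (-x) = (φ x)⁻¹ := by
  have := hadd (-x) x
  rw [neg_add_cancel, phi_zero hadd] at this
  exact eq_inv_of_mul_eq_one_left this.symm

theorem phi_comm (hadd : ∀ x y, φ (x + y) = φ x * φ y) (x y : F) : φ x * φ y = φ y * φ x := by
  rw [← hadd, ← hadd, add_comm]

theorem phi_nat (hadd : ∀ x y, φ (x + y) = φ x * φ y) (n : ℕ) (x : F) :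
    φ ((n : F) * x) = φ x ^ n := by
  induction n with
  | zero => simp [phi_zero hadd]
  | succ n ih => rw [Nat.cast_succ, add_mul, one_mul, hadd, ih, pow_succ]

theorem W_phi (hadd : ∀ x y, φ (x + y) = φ x * φ y) {g : Γ} {a : F}
    (hg : ∀ x, g * φ x * g⁻¹ = φ (a * x)) (x : F) (L : List ℕ) :
    W (φ x) g L = φ (evL a L * x) := by
  induction L with
  | nil => simp [phi_zero hadd]
  | cons c L ih => rw [W_cons, ih, hg, ← phi_nat hadd, ← hadd, evL_cons, add_mul, mul_assoc]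

end AddMaps

/-! ### The Bruhat count -/

section Bruhat

variable {F : Type*} [Field F] {Γ : Type*} [Group Γ]

/-- the Borel/monomial part of the data -/
structure Pre0 (φ : F → Γ) (h t : Γ) (z : F) : Prop where
  add : ∀ x y, φ (x + y) = φ x * φ y
  conj : ∀ x, h * φ x * h⁻¹ = φ (z * x)
  z_ne : z ≠ 0
  inv : t * h * t⁻¹ = h⁻¹

/-- the data needed for the Bruhat count -/
structure Pre (φ : F → Γ) (h t : Γ) (z : F) : Prop extends Pre0 φ h t z where
  stein : ∀ b : F, b ≠ 0 → ∃ i : ℤ, φ b * t * φ b⁻¹ * t⁻¹ * φ b = h ^ i * t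

namespace Pre0

variable {φ : F → Γ} {h t : Γ} {z : F}

theorem conj_pow (P : Pre0 φ h t z) (n : ℕ) (x : F) :
    h ^ n * φ x * (h ^ n)⁻¹ = φ (z ^ n * x) := by
  induction n generalizing x with
  | zero => simp
  | succ n ih =>
    have : h ^ (n + 1) * φ x * (h ^ (n + 1))⁻¹ = h ^ n * (h * φ x * h⁻¹) * (h ^ n)⁻¹ := by
      rw [pow_succ]; group
    rw [this, P.conj, ih, pow_succ, mul_assoc]

theorem conj_inv (P : Pre0 φ h t z) (x : F) : h⁻¹ * φ x * h = φ (z⁻¹ * x) := by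
  have := P.conj (z⁻¹ * x)
  rw [mul_inv_cancel_left₀ P.z_ne] at this
  rw [← this]; group

theorem conj_zpow (P : Pre0 φ h t z) (i : ℤ) (x : F) :
    h ^ i * φ x * (h ^ i)⁻¹ = φ (z ^ i * x) := by
  induction i using Int.induction_on generalizing x with
  | zero => simp
  | succ n ih =>
    have : h ^ ((n : ℤ) + 1) * φ x * (h ^ ((n : ℤ) + 1))⁻¹
        = h ^ (n : ℤ) * (h * φ x * h⁻¹) * (h ^ (n : ℤ))⁻¹ := by
      rw [zpow_add_one]; group
    rw [this, P.conj, ih, zpow_add_one₀ P.z_ne, mul_assoc]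
  | pred n ih =>
    have : h ^ (-(n : ℤ) - 1) * φ x * (h ^ (-(n : ℤ) - 1))⁻¹
        = h ^ (-(n : ℤ)) * (h⁻¹ * φ x * h) * (h ^ (-(n : ℤ)))⁻¹ := by
      rw [zpow_sub_one]; group
    rw [this, P.conj_inv, ih, zpow_sub_one₀ P.z_ne, mul_assoc]

theorem hz_mul (P : Pre0 φ h t z) (i : ℤ) (x : F) :
    h ^ i * φ x = φ (z ^ i * x) * h ^ i := by
  rw [← P.conj_zpow]; group

theorem t_hz (P : Pre0 φ h t z) (i : ℤ) : t * h ^ i = h ^ (-i) * t := by
  have : t * h ^ i * t⁻¹ = h ^ (-i) := by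
    rw [← _root_.conj_zpow, P.inv, inv_zpow, zpow_neg]
  rw [← this]; group

/-- conjugating a Steinberg relation by `h`. -/
theorem stein_step (P : Pre0 φ h t z) {b b' : F} {j : ℕ}
    (H : φ b * t * φ b' * t⁻¹ * φ b = h ^ j * t) :
    φ (z * b) * t * φ (z⁻¹ * b') * t⁻¹ * φ (z * b) = h ^ (j + 2) * t := by
  have e1 : t * h⁻¹ = h * t := by
    have := P.t_hz (-1)
    simpa using this
  have e4 : h * (φ b * t * φ b' * t⁻¹ * φ b) * h⁻¹ = h ^ (j + 2) * t := by
    rw [H, mul_assoc, mul_assoc, e1, pow_add, pow_two]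
    have : h * (h ^ j * (h * t)) = h ^ j * (h * h) * t := by
      have hc : h * h ^ j = h ^ j * h := (Commute.pow_right (Commute.refl h) j).eq
      calc h * (h ^ j * (h * t)) = (h * h ^ j) * h * t := by group
        _ = _ := by rw [hc]; group
    exact this
  rw [← e4, ← P.conj, ← P.conj_inv]
  have e5 : h⁻¹ * t * h⁻¹ = t := by rw [mul_assoc, e1]; group
  have e6 : h * t⁻¹ * h = t⁻¹ := by
    calc h * t⁻¹ * h = (h⁻¹ * t * h⁻¹)⁻¹ := by group
      _ = t⁻¹ := by rw [e5]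
  calc h * φ b * h⁻¹ * t * (h⁻¹ * φ b' * h) * t⁻¹ * (h * φ b * h⁻¹)
      = h * φ b * (h⁻¹ * t * h⁻¹) * φ b' * (h * t⁻¹ * h) * φ b * h⁻¹ := by group
    _ = _ := by rw [e5, e6]; group

end Pre0

namespace Pre

variable {φ : F → Γ} {h t : Γ} {z : F}

theorem conj_zpow (P : Pre φ h t z) (i : ℤ) (x : F) :
    h ^ i * φ x * (h ^ i)⁻¹ = φ (z ^ i * x) := P.toPre0.conj_zpow i x

theorem hz_mul (P : Pre φ h t z) (i : ℤ) (x : F) :
    h ^ i * φ x = φ (z ^ i * x) * h ^ i := P.toPre0.hz_mul i x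

theorem t_hz (P : Pre φ h t z) (i : ℤ) : t * h ^ i = h ^ (-i) * t := P.toPre0.t_hz i

theorem t_sq (P : Pre φ h t z) : ∃ m : ℤ, t * t = h ^ m := by
  obtain ⟨i, hi⟩ := P.stein 1 one_ne_zero
  obtain ⟨j, hj⟩ := P.stein (-1) (neg_ne_zero.mpr one_ne_zero)
  rw [inv_one] at hi
  rw [inv_neg, inv_one, phi_neg P.add] at hj
  have h1 : (φ 1)⁻¹ * t * (φ 1)⁻¹ * t⁻¹ * (φ 1)⁻¹ = (h ^ i * t)⁻¹ := by
    rw [← hi]; group
  rw [hj] at h1
  -- h^j t = t⁻¹ h^{-i}
  refine ⟨j - i, ?_⟩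
  have h2 : t * (h ^ j * t) = h ^ (-i) := by
    rw [h1]; group
  rw [← mul_assoc, P.t_hz, mul_assoc] at h2
  have h3 : t * t = h ^ j * h ^ (-i) := by
    rw [← h2]; group
  rw [h3, ← zpow_add, sub_eq_add_neg]

/-- the big cell union the Borel -/
def InX (φ : F → Γ) (h t : Γ) (g : Γ) : Prop :=
  (∃ (a : F) (i : ℤ), g = φ a * h ^ i) ∨ (∃ (a : F) (i : ℤ) (b : F), g = φ a * h ^ i * t * φ b)

theorem inX_mul_phi (P : Pre φ h t z) {g : Γ} (hg : InX φ h t g) (c : F) :
    InX φ h t (g * φ c) := by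
  rcases hg with ⟨a, i, rfl⟩ | ⟨a, i, b, rfl⟩
  · left
    refine ⟨a + z ^ i * c, i, ?_⟩
    rw [mul_assoc, P.hz_mul, P.add, mul_assoc]
  · right
    refine ⟨a, i, b + c, ?_⟩
    rw [P.add, mul_assoc]

theorem inX_mul_hz (P : Pre φ h t z) {g : Γ} (hg : InX φ h t g) (j : ℤ) :
    InX φ h t (g * h ^ j) := by
  rcases hg with ⟨a, i, rfl⟩ | ⟨a, i, b, rfl⟩
  · left
    refine ⟨a, i + j, ?_⟩
    rw [mul_assoc, zpow_add]
  · right
    refine ⟨a, i - j, z ^ (-j) * b, ?_⟩
    have h1 : φ b * h ^ j = h ^ j * φ (z ^ (-j) * b) := by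
      rw [← P.conj_zpow]; group
    rw [mul_assoc, h1, ← mul_assoc, mul_assoc (φ a * h ^ i), P.t_hz, sub_eq_add_neg, zpow_add]
    group

theorem inX_phi_hz_mul (P : Pre φ h t z) {g : Γ} (hg : InX φ h t g) (a : F) (i : ℤ) :
    InX φ h t (φ a * h ^ i * g) := by
  rcases hg with ⟨a', i', rfl⟩ | ⟨a', i', b, rfl⟩
  · left
    refine ⟨a + z ^ i * a', i + i', ?_⟩
    rw [P.add, zpow_add, mul_assoc (φ a), ← mul_assoc (h ^ i), P.hz_mul]
    group
  · right
    refine ⟨a + z ^ i * a', i + i', b, ?_⟩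
    rw [P.add, zpow_add]
    have := P.hz_mul i a'
    calc φ a * h ^ i * (φ a' * h ^ i' * t * φ b)
        = φ a * (h ^ i * φ a') * h ^ i' * t * φ b := by group
      _ = _ := by rw [this]; group

theorem inX_mul_t (P : Pre φ h t z) {g : Γ} (hg : InX φ h t g) :
    InX φ h t (g * t) := by
  obtain ⟨m, hm⟩ := P.t_sq
  rcases hg with ⟨a, i, rfl⟩ | ⟨a, i, b, rfl⟩
  · right
    exact ⟨a, i, 0, by rw [phi_zero P.add, mul_one]⟩
  · by_cases hb : b = 0
    · left
      subst hb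
      refine ⟨a, i + m, ?_⟩
      rw [phi_zero P.add, mul_one, mul_assoc, hm, zpow_add, mul_assoc]
    · obtain ⟨j, hj⟩ := P.stein b⁻¹ (inv_ne_zero hb)
      rw [inv_inv] at hj
      have h1 : t * φ b * t⁻¹ = φ (-b⁻¹) * h ^ j * t * φ (-b⁻¹) := by
        rw [phi_neg P.add, mul_assoc (_ * _), mul_assoc (φ b⁻¹)⁻¹, ← mul_assoc (h ^ j), ← hj]
        group
      have h2 : φ a * h ^ i * t * φ b * t
          = φ a * h ^ i * ((φ (-b⁻¹) * h ^ j * t * φ (-b⁻¹)) * h ^ m) := by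
        rw [← h1, ← hm]; group
      rw [h2]
      apply P.inX_phi_hz_mul
      apply P.inX_mul_hz
      right
      exact ⟨_, _, _, rfl⟩

theorem inX_mul_tinv (P : Pre φ h t z) {g : Γ} (hg : InX φ h t g) :
    InX φ h t (g * t⁻¹) := by
  obtain ⟨m, hm⟩ := P.t_sq
  have : g * t⁻¹ = g * t * h ^ (-m) := by
    rw [zpow_neg, ← hm]; group
  rw [this]
  exact P.inX_mul_hz (P.inX_mul_t hg) _

theorem inX_all (P : Pre φ h t z) (hgen : Subgroup.closure ({φ 1, h, t} : Set Γ) = ⊤) (g : Γ) :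
    InX φ h t g := by
  have hg : g ∈ Subgroup.closure ({φ 1, h, t} : Set Γ) := by rw [hgen]; trivial
  induction hg using Subgroup.closure_induction_right with
  | one => left; exact ⟨0, 0, by simp [phi_zero P.add]⟩
  | mul_right x hx y hy ih =>
    rcases hy with rfl | rfl | rfl
    · exact P.inX_mul_phi ih 1
    · simpa using P.inX_mul_hz ih 1
    · exact P.inX_mul_t ih
  | mul_inv_cancel x hx y hy ih =>
    rcases hy with rfl | rfl | rfl
    · rw [← phi_neg P.add]; exact P.inX_mul_phi ih _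
    · simpa using P.inX_mul_hz ih (-1)
    · exact P.inX_mul_tinv ih

theorem card_le [Fintype F] (P : Pre φ h t z)
    (hgen : Subgroup.closure ({φ 1, h, t} : Set Γ) = ⊤) (N : ℕ) (hN : 0 < N) (hh : h ^ N = 1) :
    Finite Γ ∧ Nat.card Γ ≤ Fintype.card F * N * (Fintype.card F + 1) := by
  let Ψ : (F × Fin N) ⊕ (F × Fin N × F) → Γ := fun s =>
    match s with
    | Sum.inl (a, i) => φ a * h ^ (i : ℕ)
    | Sum.inr (a, i, b) => φ a * h ^ (i : ℕ) * t * φ b
  have hred : ∀ i : ℤ, ∃ k : Fin N, h ^ i = h ^ (k : ℕ) := by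
    intro i
    have hN' : (N : ℤ) ≠ 0 := by exact_mod_cast hN.ne'
    have h0 : 0 ≤ i % (N : ℤ) := Int.emod_nonneg _ hN'
    have h1 : i % (N : ℤ) < N := Int.emod_lt_of_pos _ (by exact_mod_cast hN)
    refine ⟨⟨(i % (N : ℤ)).toNat, by omega⟩, ?_⟩
    rw [zpow_eq_zpow_emod i (n := (N : ℤ)) (by simpa using hh)]
    conv_lhs => rw [← Int.toNat_of_nonneg h0]
    rw [zpow_natCast]
  have hsurj : Function.Surjective Ψ := by
    intro g
    rcases P.inX_all hgen g with ⟨a, i, rfl⟩ | ⟨a, i, b, rfl⟩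
    · obtain ⟨k, hk⟩ := hred i
      exact ⟨Sum.inl (a, k), by simp only [Ψ]; rw [hk]⟩
    · obtain ⟨k, hk⟩ := hred i
      exact ⟨Sum.inr (a, k, b), by simp only [Ψ]; rw [hk]⟩
  refine ⟨Finite.of_surjective Ψ hsurj, ?_⟩
  refine (Nat.card_le_card_of_surjective Ψ hsurj).trans (le_of_eq ?_)
  rw [Nat.card_eq_fintype_card]
  simp only [Fintype.card_sum, Fintype.card_prod, Fintype.card_fin]
  ring

end Pre

end Bruhat



/-! ### Commutativity trick -/

section Comm

variable {Γ : Type*} [Group Γ]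

/-- `u` commutes with its conjugate by `h^n` -/
def CC (u h : Γ) (n : ℤ) : Prop := Commute u (h ^ n * u * (h ^ n)⁻¹)

theorem CC.symm' {u h : Γ} {n : ℤ} (H : CC u h n) : CC u h (-n) := by
  unfold CC at *
  have h1 : Commute (h ^ (-n) * u * (h ^ (-n))⁻¹) (h ^ (-n) * (h ^ n * u * (h ^ n)⁻¹) * (h ^ (-n))⁻¹) :=
    (Commute.conj_iff (h ^ (-n))).mpr H
  have h2 : h ^ (-n) * (h ^ n * u * (h ^ n)⁻¹) * (h ^ (-n))⁻¹ = u := by group
  rw [h2] at h1
  exact h1.symm

theorem CC_zero (u h : Γ) : CC u h 0 := by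
  unfold CC; simp

theorem rel_shift {u h : Γ} {k l : ℤ}
    (hrel : h ^ k * u * (h ^ k)⁻¹ = u * (h ^ l * u * (h ^ l)⁻¹)) (n : ℤ) :
    h ^ (n + k) * u * (h ^ (n + k))⁻¹
      = (h ^ n * u * (h ^ n)⁻¹) * (h ^ (n + l) * u * (h ^ (n + l))⁻¹) := by
  have : h ^ (n + k) * u * (h ^ (n + k))⁻¹ = h ^ n * (h ^ k * u * (h ^ k)⁻¹) * (h ^ n)⁻¹ := by
    rw [zpow_add]; group
  rw [this, hrel, zpow_add]; group

theorem CC_row {u h : Γ} {k l : ℤ}
    (hrel : h ^ k * u * (h ^ k)⁻¹ = u * (h ^ l * u * (h ^ l)⁻¹)) (hl : CC u h l) (j : ℕ) :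
    CC u h (j * l) := by
  have A1 : ∀ n, CC u h n → CC u h (n + l) → CC u h (n + k) := by
    intro n h1 h2
    unfold CC at *
    rw [rel_shift hrel]
    exact h1.mul_right h2
  have A2 : ∀ n, CC u h n → CC u h (n + k) → CC u h (n + l) := by
    intro n h1 h2
    unfold CC at *
    have : h ^ (n + l) * u * (h ^ (n + l))⁻¹
        = (h ^ n * u * (h ^ n)⁻¹)⁻¹ * (h ^ (n + k) * u * (h ^ (n + k))⁻¹) := by
      rw [rel_shift hrel]; group
    rw [this]
    exact h1.inv_right.mul_right h2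
  have A3 : ∀ n, CC u h (n + l) → CC u h (n + k) → CC u h n := by
    intro n h1 h2
    unfold CC at *
    have : h ^ n * u * (h ^ n)⁻¹
        = (h ^ (n + k) * u * (h ^ (n + k))⁻¹) * (h ^ (n + l) * u * (h ^ (n + l))⁻¹)⁻¹ := by
      rw [rel_shift hrel]; group
    rw [this]
    exact h2.mul_right h1.inv_right
  have key : ∀ b : ℕ, CC u h (b * l) ∧ CC u h ((b + 1 : ℕ) * l) := by
    intro b
    induction b with
    | zero => exact ⟨by simpa using CC_zero u h, by simpa using hl⟩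
    | succ b ih =>
      obtain ⟨h0, h1⟩ := ih
      refine ⟨h1, ?_⟩
      -- n = (b+1) l
      set n : ℤ := ((b + 1 : ℕ) : ℤ) * l with hn
      have e0 : ((b : ℕ) : ℤ) * l = n - l := by rw [hn]; push_cast; ring
      rw [e0] at h0
      -- C(n - k)
      have s1 : CC u h (n - k) := by
        have := A1 (-n) h1.symm' (by have := h0.symm'; rwa [neg_sub, sub_eq_neg_add] at this)
        have := this.symm'
        rwa [neg_add, neg_neg, ← sub_eq_add_neg] at this
      -- C(n - k + l)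
      have s2 : CC u h (n - k + l) := A2 (n - k) s1 (by rwa [sub_add_cancel])
      -- C(n + l)
      have s3 : CC u h (n + l) := by
        have := A3 (-(n + l)) (by have := h1.symm'; rwa [neg_add, add_assoc, neg_add_cancel, add_zero])
          (by
            have := s2.symm'
            have e : -(n - k + l) = -(n + l) + k := by ring
            rwa [e] at this)
        have := this.symm'
        rwa [neg_neg] at this
      have e1 : (((b + 1 + 1 : ℕ) : ℤ)) * l = n + l := by rw [hn]; push_cast; ring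
      rw [e1]; exact s3
  exact (key j).1

end Comm



open Polynomial

section Psi

theorem psi_mod (p : ℕ) {M : Type*} [AddCommGroup M] [Module (ZMod p) M] (T : M →+ M) (u0 : M) :
    ∃ ψ : (ZMod p)[X] → M, (∀ f f', ψ (f + f') = ψ f + ψ f') ∧ ψ 1 = u0 ∧
      (∀ f, ψ (X * f) = T (ψ f)) ∧ (∀ r f, ψ f = 0 → ψ (r * f) = 0) := by
  refine ⟨fun f => (aeval (T.toZModLinearMap p) f) u0, ?_, ?_, ?_, ?_⟩
  · intro f f'
    simp only [map_add, LinearMap.add_apply]
  · simp
  · intro f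
    simp only [map_mul, aeval_X, Module.End.mul_apply]
    rfl
  · intro r f hf
    simp only at hf
    simp only [map_mul, Module.End.mul_apply, hf, map_zero]

theorem psi_add (p : ℕ) {M : Type*} [AddCommGroup M] (hexp : ∀ x : M, p • x = 0)
    (T : M →+ M) (u0 : M) :
    ∃ ψ : (ZMod p)[X] → M, (∀ f f', ψ (f + f') = ψ f + ψ f') ∧ ψ 1 = u0 ∧
      (∀ f, ψ (X * f) = T (ψ f)) ∧ (∀ r f, ψ f = 0 → ψ (r * f) = 0) := by
  letI : Module (ZMod p) M := AddCommGroup.zmodModule hexp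
  exact psi_mod p T u0

theorem psi_comm (p : ℕ) {A : Type*} [CommGroup A] (hexp : ∀ x : A, x ^ p = 1)
    (T : A →* A) (u0 : A) :
    ∃ ψ : (ZMod p)[X] → A, (∀ f f', ψ (f + f') = ψ f * ψ f') ∧ ψ 1 = u0 ∧
      (∀ f, ψ (X * f) = T (ψ f)) ∧ (∀ r f, ψ f = 1 → ψ (r * f) = 1) := by
  obtain ⟨ψ, h1, h2, h3, h4⟩ := psi_add p (M := Additive A)
    (fun x => congrArg Additive.ofMul (hexp x.toMul)) (MonoidHom.toAdditive T) (Additive.ofMul u0)
  refine ⟨fun f => (ψ f).toMul, ?_, ?_, ?_, ?_⟩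
  · intro f f'; simp only [h1, toMul_add]
  · simp only [h2, toMul_ofMul]
  · intro f; simp only [h3]; rfl
  · intro r f hf
    have : ψ f = 0 := congrArg Additive.ofMul hf
    simp only [h4 r f this, toMul_zero]

variable {Γ : Type*} [Group Γ]

theorem exists_psi (p : ℕ) (u g : Γ) (hu : u ^ p = 1)
    (hc : ∀ j : ℕ, Commute u (g ^ j * u * (g ^ j)⁻¹)) :
    ∃ ψ : (ZMod p)[X] → Γ, (∀ f f', ψ (f + f') = ψ f * ψ f') ∧ ψ 1 = u ∧
      (∀ f, ψ (X * f) = g * ψ f * g⁻¹) ∧ (∀ r f, ψ f = 1 → ψ (r * f) = 1) := by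
  classical
  set S : Set Γ := Set.range (fun j : ℕ => g ^ j * u * (g ^ j)⁻¹) with hS
  have hcomm : ∀ x ∈ S, ∀ y ∈ S, x * y = y * x := by
    have aux : ∀ i j : ℕ, i ≤ j → Commute (g ^ i * u * (g ^ i)⁻¹) (g ^ j * u * (g ^ j)⁻¹) := by
      intro i j hij
      obtain ⟨d, rfl⟩ := Nat.exists_eq_add_of_le hij
      have h1 := (Commute.conj_iff (g ^ i)).mpr (hc d)
      have h2 : g ^ i * (g ^ d * u * (g ^ d)⁻¹) * (g ^ i)⁻¹ = g ^ (i + d) * u * (g ^ (i + d))⁻¹ := by
        rw [pow_add]; group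
      rwa [h2] at h1
    rintro _ ⟨i, rfl⟩ _ ⟨j, rfl⟩
    rcases le_total i j with hij | hij
    · exact aux i j hij
    · exact (aux j i hij).symm
  set A : Subgroup Γ := Subgroup.closure S with hA
  have hAc : IsMulCommutative A := Subgroup.isMulCommutative_closure hcomm
  letI : CommGroup A := { (inferInstance : Group A) with mul_comm := fun a b => mul_comm' a b }
  have hexp : ∀ x : A, x ^ p = 1 := by
    rintro ⟨x, hx⟩
    apply Subtype.ext
    simp only [Subgroup.coe_pow, Subgroup.coe_one]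
    induction hx using Subgroup.closure_induction with
    | mem x hx =>
      obtain ⟨j, rfl⟩ := hx
      rw [conj_pow, hu]; group
    | one => simp
    | mul x y hx hy ihx ihy =>
      have : Commute x y := by
        have := mul_comm' (⟨x, hx⟩ : A) ⟨y, hy⟩
        exact congrArg Subtype.val this
      rw [this.mul_pow, ihx, ihy, one_mul]
    | inv x hx ih => rw [inv_pow, ih, inv_one]
  have hconj : ∀ x ∈ A, g * x * g⁻¹ ∈ A := by
    intro x hx
    induction hx using Subgroup.closure_induction with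
    | mem x hx =>
      obtain ⟨j, rfl⟩ := hx
      apply Subgroup.subset_closure
      refine ⟨j + 1, ?_⟩
      simp only [pow_succ']; group
    | one => simp
    | mul x y hx hy ihx ihy =>
      have : g * (x * y) * g⁻¹ = (g * x * g⁻¹) * (g * y * g⁻¹) := by group
      rw [this]; exact A.mul_mem ihx ihy
    | inv x hx ih =>
      have : g * x⁻¹ * g⁻¹ = (g * x * g⁻¹)⁻¹ := by group
      rw [this]; exact A.inv_mem ih
  let cg : A →* A :=
    { toFun := fun x => ⟨g * x.1 * g⁻¹, hconj x.1 x.2⟩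
      map_one' := by apply Subtype.ext; simp
      map_mul' := by intro x y; apply Subtype.ext; simp only [Subgroup.coe_mul]; group }
  have hu0 : u ∈ A := Subgroup.subset_closure ⟨0, by simp⟩
  obtain ⟨ψ, h1, h2, h3, h4⟩ := psi_comm p hexp cg ⟨u, hu0⟩
  refine ⟨fun f => (ψ f).1, ?_, ?_, ?_, ?_⟩
  · intro f f'
    simp only [h1]; rfl
  · simp only [h2]
  · intro f
    simp only [h3]; rfl
  · intro r f hf
    have : ψ f = 1 := Subtype.ext hf
    simp only [h4 r f this]; rfl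

end Psi




section Lists

variable (p : ℕ)

/-- polynomial of a coefficient list -/
noncomputable def pL : List ℕ → (ZMod p)[X]
  | [] => 0
  | c :: L => C (c : ZMod p) + X * pL L

theorem pL_cons (c : ℕ) (L : List ℕ) : pL p (c :: L) = C (c : ZMod p) + X * pL p L := rfl

theorem exists_pL [NeZero p] (f : (ZMod p)[X]) : ∃ L, pL p L = f := by
  induction f using Polynomial.recOnHorner with
  | M0 => exact ⟨[], rfl⟩
  | MC f a _ _ ih =>
    obtain ⟨L, rfl⟩ := ih
    cases L with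
    | nil => exact ⟨[a.val], by simp [pL]⟩
    | cons c L =>
      refine ⟨(c + a.val) :: L, ?_⟩
      simp only [pL_cons, Nat.cast_add, ZMod.natCast_val, ZMod.cast_id', id_eq, C_add]
      ring
  | MX f _ ih =>
    obtain ⟨L, rfl⟩ := ih
    exact ⟨0 :: L, by simp [pL_cons, mul_comm]⟩

theorem aeval_pL {F : Type*} [CommRing F] [Algebra (ZMod p) F] (a : F) (L : List ℕ) :
    aeval a (pL p L) = evL a L := by
  induction L with
  | nil => simp [pL]
  | cons c L ih => simp [pL_cons, evL_cons, ih]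

variable {Γ : Type*} [Group Γ]

theorem psi_pL {ψ : (ZMod p)[X] → Γ} {u g : Γ} (h1 : ∀ f f', ψ (f + f') = ψ f * ψ f')
    (h2 : ψ 1 = u) (h3 : ∀ f, ψ (X * f) = g * ψ f * g⁻¹) (L : List ℕ) :
    ψ (pL p L) = W u g L := by
  induction L with
  | nil => simp [pL, phi_zero h1]
  | cons c L ih =>
    rw [pL_cons, h1, h3, ih, W_cons]
    congr 1
    have := phi_nat h1 c 1
    rw [h2, mul_one] at this
    rw [← this]; simp

theorem exists_phi [Fact p.Prime] {F : Type*} [Field F] [Algebra (ZMod p) F] [Finite F] (a : F)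
    (ha : Algebra.adjoin (ZMod p) {a} = ⊤)
    {ψ : (ZMod p)[X] → Γ} {u g : Γ} (h1 : ∀ f f', ψ (f + f') = ψ f * ψ f')
    (h2 : ψ 1 = u) (h3 : ∀ f, ψ (X * f) = g * ψ f * g⁻¹) (h4 : ∀ r f, ψ f = 1 → ψ (r * f) = 1)
    (hm : ψ (minpoly (ZMod p) a) = 1) :
    ∃ φ : F → Γ, (∀ x y, φ (x + y) = φ x * φ y) ∧ φ 1 = u ∧ (∀ x, g * φ x * g⁻¹ = φ (a * x)) := by
  have hsurj : ∀ x : F, ∃ f : (ZMod p)[X], aeval a f = x := by
    intro x
    have : x ∈ Algebra.adjoin (ZMod p) {a} := by rw [ha]; trivial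
    rw [Algebra.adjoin_singleton_eq_range_aeval] at this
    exact this
  choose F' hF' using hsurj
  have key : ∀ f, ψ (F' (aeval a f)) = ψ f := by
    intro f
    have h0 : aeval a (F' (aeval a f) - f) = 0 := by rw [map_sub, hF', sub_self]
    obtain ⟨r, hr⟩ := minpoly.dvd (ZMod p) a h0
    have h5 : ψ (F' (aeval a f) - f) = 1 := by
      rw [hr, mul_comm]; exact h4 _ _ hm
    have : F' (aeval a f) = (F' (aeval a f) - f) + f := by ring
    rw [this, h1, h5, one_mul]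
  refine ⟨fun x => ψ (F' x), ?_, ?_, ?_⟩
  · intro x y
    simp only
    rw [← h1, ← key (F' x + F' y), map_add, hF', hF']
  · simp only
    rw [← h2, ← key 1, map_one]
  · intro x
    simp only
    rw [← h3, ← key (X * F' x), map_mul, aeval_X, hF']

end Lists

end Cfsg.Agent.Lib.Helper43Pres
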