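import Cfsg.Agent.Lib.Helper43Pres

set_option autoImplicit false

namespace Cfsg.Agent.Lib.Helper43Pres

open Polynomial

section Model

variable {F : Type*} [Field F] {Γ : Type*} [Group Γ]

/-- the Steinberg relation number `j` -/
def RR (φ : F → Γ) (h t : Γ) (ζ : F) (j : ℕ) : Prop :=
  φ (ζ ^ j) * t * φ (ζ ^ j)⁻¹ * t⁻¹ * φ (ζ ^ j) = h ^ j * t

theorem RR_add_two {φ : F → Γ} {h t : Γ} {ζ : F} (P : Pre0 φ h t (ζ ^ 2)) {j : ℕ}
    (H : RR φ h t ζ j) : RR φ h t ζ (j + 2) := by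
  unfold RR at *
  have := P.stein_step H
  have e1 : ζ ^ (j + 2) = ζ ^ 2 * ζ ^ j := by ring
  have e2 : (ζ ^ (j + 2))⁻¹ = (ζ ^ 2)⁻¹ * (ζ ^ j)⁻¹ := by rw [e1, mul_inv]
  rw [e2, e1]; exact this

theorem RR_add_two_mul {φ : F → Γ} {h t : Γ} {ζ : F} (P : Pre0 φ h t (ζ ^ 2)) {j : ℕ}
    (H : RR φ h t ζ j) (i : ℕ) : RR φ h t ζ (j + 2 * i) := by
  induction i with
  | zero => simpa using H
  | succ i ih =>
    have := RR_add_two P ih
    have e : j + 2 * (i + 1) = j + 2 * i + 2 := by ring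
    rw [e]; exact this

theorem RR_all {φ : F → Γ} {h t : Γ} {ζ : F} (P : Pre0 φ h t (ζ ^ 2))
    (H0 : RR φ h t ζ 0) (H1 : RR φ h t ζ 1) (j : ℕ) : RR φ h t ζ j := by
  rcases Nat.even_or_odd' j with ⟨i, rfl | rfl⟩
  · simpa using RR_add_two_mul P H0 i
  · have := RR_add_two_mul P H1 i
    rwa [add_comm] at this

/-- if `ζ^N = 1` then `h^N = 1`, given relations `0` and `N`. -/
theorem h_pow_of_RR {φ : F → Γ} {h t : Γ} {ζ : F} {N : ℕ} (hN : ζ ^ N = 1)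
    (H0 : RR φ h t ζ 0) (HN : RR φ h t ζ N) : h ^ N = 1 := by
  unfold RR at *
  rw [hN] at HN
  rw [pow_zero, HN] at H0
  simpa using H0

/-- if `ζ^j = -1` then `t⁻¹ = h^j t`. -/
theorem tinv_of_RR {φ : F → Γ} {h t : Γ} {ζ : F} (hadd : ∀ x y, φ (x + y) = φ x * φ y)
    {j : ℕ} (hj : ζ ^ j = -1)
    (H0 : RR φ h t ζ 0) (Hj : RR φ h t ζ j) : t⁻¹ = h ^ j * t := by
  unfold RR at *
  rw [hj, inv_neg, inv_one, phi_neg hadd] at Hj
  rw [pow_zero, inv_one, pow_zero, one_mul] at H0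
  rw [← Hj]
  calc t⁻¹ = (φ 1 * t * φ 1 * t⁻¹ * φ 1)⁻¹ := by rw [H0]
    _ = _ := by group

end Model

section Build

variable {Γ : Type*} [Group Γ]

/-- building the root subgroup parametrisation from the relations. -/
theorem pre0_of_rels (p : ℕ) [Fact p.Prime] {F : Type*} [Field F] [Finite F] [Algebra (ZMod p) F]
    (ζ : F) (hζ : ζ ≠ 0) (l : ℕ) (Lm L3 : List ℕ)
    (ha : Algebra.adjoin (ZMod p) {ζ ^ (2 * l)} = ⊤)
    (hLm : pL p Lm = minpoly (ZMod p) (ζ ^ (2 * l)))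
    (hL3 : evL (ζ ^ (2 * l)) L3 = ζ ^ 2)
    (u h t : Γ) (r1 : u ^ p = 1) (r3 : t * h * t⁻¹ = h⁻¹)
    (rC : ∀ j : ℕ, Commute u ((h ^ l) ^ j * u * ((h ^ l) ^ j)⁻¹))
    (r4c : h * u * h⁻¹ = W u (h ^ l) L3) (r5 : W u (h ^ l) Lm = 1) :
    ∃ φ : F → Γ, φ 1 = u ∧ Pre0 φ h t (ζ ^ 2) ∧ ∀ L, W u (h ^ l) L = φ (evL (ζ ^ (2 * l)) L) := by
  obtain ⟨ψ, h1, h2, h3, h4⟩ := exists_psi p u (h ^ l) r1 rC
  have hm : ψ (minpoly (ZMod p) (ζ ^ (2 * l))) = 1 := by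
    rw [← hLm, psi_pL p h1 h2 h3, r5]
  obtain ⟨φ, a1, a2, a3⟩ := exists_phi p (ζ ^ (2 * l)) ha h1 h2 h3 h4 hm
  have hW : ∀ L, W u (h ^ l) L = φ (evL (ζ ^ (2 * l)) L) := by
    intro L
    have := W_phi a1 a3 1 L
    rwa [a2, mul_one] at this
  have hsurj : ∀ x : F, ∃ L, evL (ζ ^ (2 * l)) L = x := by
    intro x
    have : x ∈ Algebra.adjoin (ZMod p) {ζ ^ (2 * l)} := by rw [ha]; trivial
    rw [Algebra.adjoin_singleton_eq_range_aeval] at this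
    obtain ⟨f, hf⟩ := this
    obtain ⟨L, rfl⟩ := exists_pL p f
    exact ⟨L, by rw [← aeval_pL p]; exact hf⟩
  have hcomm : h * h ^ l = h ^ l * h := (Commute.pow_right (Commute.refl h) l).eq
  have hconjW : ∀ L, h * W u (h ^ l) L * h⁻¹ = φ (ζ ^ 2 * evL (ζ ^ (2 * l)) L) := by
    intro L
    induction L with
    | nil => simp [phi_zero a1]
    | cons c L ih =>
      rw [W_cons, evL_cons, mul_add, a1]
      have e1 : h * (u ^ c * (h ^ l * W u (h ^ l) L * (h ^ l)⁻¹)) * h⁻¹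
          = (h * u * h⁻¹) ^ c * (h ^ l * (h * W u (h ^ l) L * h⁻¹) * (h ^ l)⁻¹) := by
        rw [conj_pow]
        calc h * (u ^ c * (h ^ l * W u (h ^ l) L * (h ^ l)⁻¹)) * h⁻¹
            = h * u ^ c * h⁻¹ * ((h * h ^ l) * W u (h ^ l) L * (h * h ^ l)⁻¹) := by group
          _ = _ := by rw [hcomm]; group
      rw [e1, ih, a3, r4c, hW, hL3, ← phi_nat a1]
      congr 2
      · ring
      · ring
  refine ⟨φ, a2, ⟨a1, ?_, pow_ne_zero _ hζ, r3⟩, hW⟩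
  intro x
  obtain ⟨L, rfl⟩ := hsurj x
  rw [← hW, hconjW]

/-- in characteristic two, the torus relation hidden in the minimal polynomial relation. -/
theorem z_trivial (p : ℕ) (u h : Γ) (r1 : u ^ p = 1)
    (rC : ∀ j : ℕ, Commute u (h ^ j * u * (h ^ j)⁻¹)) (k N : ℕ) (Lm : List ℕ)
    (r4 : h ^ k * u * (h ^ k)⁻¹ = u * (h * u * h⁻¹)) (r5 : W u h Lm = h ^ N) : h ^ N = 1 := by
  obtain ⟨ψ, h1, h2, h3, h4⟩ := exists_psi p u h r1 rC
  have hX : ∀ (n : ℕ) f, ψ (X ^ n * f) = h ^ n * ψ f * (h ^ n)⁻¹ := by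
    intro n f
    induction n with
    | zero => simp
    | succ n ih =>
      rw [pow_succ', mul_assoc, h3, ih, pow_succ']; group
  have hz : ψ (pL p Lm) = h ^ N := by rw [psi_pL p h1 h2 h3, r5]
  have e0 : ψ (X ^ k - (1 + X)) = 1 := by
    have e1 : ψ (X ^ k) = ψ (1 + X) := by
      have := hX k 1
      rw [mul_one, h2, r4] at this
      rw [this, h1, h2]
      have := h3 1
      rw [mul_one, h2] at this
      rw [this]
    have e2 : X ^ k = (X ^ k - (1 + X)) + (1 + X : (ZMod p)[X]) := by ring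
    have e3 := h1 (X ^ k - (1 + X)) (1 + X)
    rw [← e2, e1] at e3
    exact (mul_eq_right.mp e3.symm)
  have e4 := h4 (pL p Lm) _ e0
  have e5 : X ^ k * pL p Lm = pL p Lm * (X ^ k - (1 + X)) + (pL p Lm + X * pL p Lm) := by ring
  have e6 := hX k (pL p Lm)
  rw [e5, h1, e4, one_mul, h1, h3, hz] at e6
  have c1 : h * h ^ N * h⁻¹ = h ^ N := by
    have : h * h ^ N = h ^ N * h := (Commute.pow_right (Commute.refl h) N).eq
    rw [this]; group
  have c2 : h ^ k * h ^ N * (h ^ k)⁻¹ = h ^ N := by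
    have : h ^ k * h ^ N = h ^ N * h ^ k := (Commute.pow_pow (Commute.refl h) k N).eq
    rw [this]; group
  rw [c1, c2] at e6
  exact mul_eq_left.mp e6

end Build

end Cfsg.Agent.Lib.Helper43Pres
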