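import Cfsg.Agent.Lib.Helper43PresS

set_option autoImplicit false

namespace Cfsg.Agent.Lib.Helper43Pres

open Polynomial

/-! ### plumbing -/

section Plumbing

theorem pres_iso {α : Type} [DecidableEq α] {G : Type*} [Group G] [Finite G]
    (Lw : List (FreeGroup α))
    (f : FreeGroup α →* G) (hf : ∀ r ∈ Lw, f r = 1) (hsurj : Function.Surjective f)
    (hcard : ∀ (Γ : Type) [Group Γ] (π : FreeGroup α →* Γ), Function.Surjective π →
      (∀ r ∈ Lw, π r = 1) → Finite Γ ∧ Nat.card Γ ≤ Nat.card G) :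
    ∃ rels : Finset (FreeGroup α), rels.card ≤ Lw.length ∧
      Nonempty (PresentedGroup (↑rels : Set (FreeGroup α)) ≃* G) := by
  classical
  refine ⟨Lw.toFinset, Lw.toFinset_card_le, ?_⟩
  set rels : Set (FreeGroup α) := ↑Lw.toFinset with hrels
  have hmem : ∀ r, r ∈ rels ↔ r ∈ Lw := by intro r; simp [hrels]
  have hker : Subgroup.normalClosure rels ≤ f.ker := by
    apply Subgroup.normalClosure_le_normal
    intro r hr
    exact hf r ((hmem r).mp hr)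
  let F' : PresentedGroup rels →* G := QuotientGroup.lift (Subgroup.normalClosure rels) f
    (fun x hx => hker hx)
  have hF' : Function.Surjective F' := by
    intro g
    obtain ⟨w, rfl⟩ := hsurj g
    exact ⟨PresentedGroup.mk rels w, rfl⟩
  obtain ⟨hfin, hc⟩ := hcard (PresentedGroup rels) (PresentedGroup.mk rels)
    (PresentedGroup.mk_surjective rels)
    (fun r hr => PresentedGroup.one_of_mem ((hmem r).mpr hr))
  exact ⟨MulEquiv.ofBijective F' (hF'.bijective_of_nat_card_le hc)⟩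

theorem closure_of_surj {Γ : Type*} [Group Γ] (π : FreeGroup (Fin 3) →* Γ)
    (hπ : Function.Surjective π) :
    Subgroup.closure ({π (FreeGroup.of 0), π (FreeGroup.of 1), π (FreeGroup.of 2)} : Set Γ)
      = ⊤ := by
  have h1 : Subgroup.closure (Set.range (FreeGroup.of : Fin 3 → FreeGroup (Fin 3))) = ⊤ :=
    FreeGroup.closure_range_of (Fin 3)
  have h2 := congrArg (Subgroup.map π) h1
  rw [MonoidHom.map_closure, Subgroup.map_top_of_surjective π hπ] at h2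
  rw [← h2]
  congr 1
  ext x
  simp only [Set.mem_insert_iff, Set.mem_singleton_iff, Set.mem_image, Set.mem_range,
    exists_exists_eq_and]
  constructor
  · rintro (rfl | rfl | rfl)
    exacts [⟨0, rfl⟩, ⟨1, rfl⟩, ⟨2, rfl⟩]
  · rintro ⟨i, rfl⟩
    fin_cases i
    · left; rfl
    · right; left; rfl
    · right; right; rfl

theorem lift_surj {G : Type*} [Group G] (u h t : G)
    (hgen : Subgroup.closure ({u, h, t} : Set G) = ⊤) :
    Function.Surjective (FreeGroup.lift ![u, h, t]) := by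
  rw [← MonoidHom.range_eq_top, FreeGroup.range_lift_eq_closure, ← hgen]
  congr 1
  ext x
  simp only [Set.mem_range, Set.mem_insert_iff, Set.mem_singleton_iff]
  constructor
  · rintro ⟨i, rfl⟩
    fin_cases i
    · left; rfl
    · right; left; rfl
    · right; right; rfl
  · rintro (rfl | rfl | rfl)
    exacts [⟨0, rfl⟩, ⟨1, rfl⟩, ⟨2, rfl⟩]

end Plumbing

/-! ### relator lists -/

section Rels

variable {G : Type*} [Group G]

/-- relators in odd characteristic -/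
def relsOdd (p l k c d : ℕ) (Lm L1 L2 L3 : List ℕ) (u h t : G) : List G :=
  [u ^ p,
   u * t * u * t⁻¹ * u * t⁻¹,
   W u (h ^ l) L1 * t * W u (h ^ l) L2 * t⁻¹ * W u (h ^ l) L1 * (h * t)⁻¹,
   t * h * t⁻¹ * h,
   u * (h ^ l * u * (h ^ l)⁻¹) * (h ^ l * u * (h ^ l)⁻¹ * u)⁻¹,
   h ^ k * u * (h ^ k)⁻¹ * (u ^ c * (h ^ l * u * (h ^ l)⁻¹) ^ d)⁻¹,
   h * u * h⁻¹ * (W u (h ^ l) L3)⁻¹,
   W u (h ^ l) Lm]

theorem relsOdd_map {G' : Type*} [Group G'] (f : G →* G') (p l k c d : ℕ)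
    (Lm L1 L2 L3 : List ℕ) (u h t : G) :
    (relsOdd p l k c d Lm L1 L2 L3 u h t).map f
      = relsOdd p l k c d Lm L1 L2 L3 (f u) (f h) (f t) := by
  simp [relsOdd, map_W]

/-- relators in characteristic two -/
def relsEven (k N : ℕ) (Lm : List ℕ) (u h t : G) : List G :=
  [u ^ 2,
   u * t * u * t⁻¹ * u * t⁻¹,
   t * h * t⁻¹ * h,
   h ^ k * u * (h ^ k)⁻¹ * (u * (h * u * h⁻¹))⁻¹,
   W u h Lm * (h ^ N)⁻¹]

theorem relsEven_map {G' : Type*} [Group G'] (f : G →* G') (k N : ℕ)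
    (Lm : List ℕ) (u h t : G) :
    (relsEven k N Lm u h t).map f = relsEven k N Lm (f u) (f h) (f t) := by
  simp [relsEven, map_W]

/-- transfer of "all relators vanish" along a hom -/
theorem forall_map_one {G' : Type*} [Group G'] (f : G →* G') (L : List G) :
    (∀ r ∈ L, f r = 1) ↔ ∀ r ∈ L.map f, r = 1 := by
  simp

end Rels

section Odd

/-- field data of the odd presentation -/
structure OddData (p : ℕ) {F : Type*} [Field F] [Algebra (ZMod p) F] (ζ : F) (l k c d : ℕ)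
    (Lm L1 L2 L3 : List ℕ) : Prop where
  ha : Algebra.adjoin (ZMod p) {ζ ^ (2 * l)} = ⊤
  hk : ζ ^ (2 * k) = (c : F) + (d : F) * ζ ^ (2 * l)
  hLm : pL p Lm = minpoly (ZMod p) (ζ ^ (2 * l))
  hL1 : evL (ζ ^ (2 * l)) L1 = ζ
  hL2 : evL (ζ ^ (2 * l)) L2 = ζ⁻¹
  hL3 : evL (ζ ^ (2 * l)) L3 = ζ ^ 2

variable {p : ℕ} {F : Type*} [Field F] [Algebra (ZMod p) F] {ζ : F} {l k c d : ℕ}
  {Lm L1 L2 L3 : List ℕ} {Γ : Type*} [Group Γ]

theorem evL_Lm {a : F} {Lm : List ℕ} (hLm : pL p Lm = minpoly (ZMod p) a) : evL a Lm = 0 := by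
  rw [← aeval_pL p, hLm, minpoly.aeval]

theorem relsOdd_of_model [CharP F p] (D : OddData p ζ l k c d Lm L1 L2 L3)
    {φ : F → Γ} {h t : Γ} (P : Pre0 φ h t (ζ ^ 2)) (H0 : RR φ h t ζ 0) (H1 : RR φ h t ζ 1) :
    ∀ r ∈ relsOdd p l k c d Lm L1 L2 L3 (φ 1) h t, r = 1 := by
  have hg : ∀ x, h ^ l * φ x * (h ^ l)⁻¹ = φ (ζ ^ (2 * l) * x) := by
    intro x; rw [P.conj_pow, ← pow_mul]
  have hW : ∀ L, W (φ 1) (h ^ l) L = φ (evL (ζ ^ (2 * l)) L) := by
    intro L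
    rw [W_phi P.add hg, mul_one]
  unfold RR at H0 H1
  simp only [pow_zero, inv_one, one_mul, pow_one] at H0 H1
  intro r hr
  simp only [relsOdd, List.mem_cons, List.not_mem_nil, or_false] at hr
  rcases hr with rfl | rfl | rfl | rfl | rfl | rfl | rfl | rfl
  · rw [← phi_nat P.add, CharP.cast_eq_zero, zero_mul, phi_zero P.add]
  · rw [H0, mul_inv_cancel]
  · rw [hW, hW, D.hL1, D.hL2, H1, mul_inv_cancel]
  · rw [P.inv, inv_mul_cancel]
  · rw [hg, phi_comm P.add, mul_inv_cancel]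
  · rw [hg, P.conj_pow, ← pow_mul, D.hk, mul_one, mul_one, P.add, ← phi_nat P.add,
      ← phi_nat P.add, mul_one, mul_inv_cancel]
  · rw [hW, D.hL3, P.conj, mul_one, mul_inv_cancel]
  · rw [hW, evL_Lm D.hLm, phi_zero P.add]

/-- the order bound in odd characteristic. -/
theorem card_odd [Fact p.Prime] [Fintype F] (D : OddData p ζ l k c d Lm L1 L2 L3)
    (hζ : ζ ≠ 0) (hgenζ : ∀ b : F, b ≠ 0 → ∃ j : ℕ, ζ ^ j = b)
    (hord : orderOf ζ = Fintype.card F - 1)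
    {u h t : Γ} (hgen : Subgroup.closure ({u, h, t} : Set Γ) = ⊤)
    (hrel : ∀ r ∈ relsOdd p l k c d Lm L1 L2 L3 u h t, r = 1)
    (rC : ∀ j : ℕ, Commute u ((h ^ l) ^ j * u * ((h ^ l) ^ j)⁻¹)) :
    (Finite Γ ∧ Nat.card Γ ≤ Fintype.card F * (Fintype.card F - 1) * (Fintype.card F + 1)) ∧
    (∀ j₀ : ℕ, 0 < j₀ → ζ ^ j₀ = -1 → t * t = 1 →
      Nat.card Γ ≤ Fintype.card F * j₀ * (Fintype.card F + 1)) := by
  simp only [relsOdd, List.mem_cons, List.not_mem_nil, or_false, forall_eq_or_imp, forall_eq]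
    at hrel
  obtain ⟨r1, r2, r2', r3, -, -, r4c, r5⟩ := hrel
  rw [mul_inv_eq_one] at r2 r2' r4c
  have r3' : t * h * t⁻¹ = h⁻¹ := eq_inv_of_mul_eq_one_left r3
  obtain ⟨φ, hφ1, P, hW⟩ := pre0_of_rels p ζ hζ l Lm L3 D.ha D.hLm D.hL3 u h t r1 r3' rC r4c r5
  have H0 : RR φ h t ζ 0 := by
    unfold RR
    simp only [pow_zero, inv_one, one_mul, hφ1]
    exact r2
  have H1 : RR φ h t ζ 1 := by
    unfold RR
    simp only [pow_one]
    rw [hW, hW, D.hL1, D.hL2] at r2'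
    exact r2'
  have HR := RR_all P H0 H1
  have hq : 2 ≤ Fintype.card F := Fintype.one_lt_card
  have hζN : ζ ^ (Fintype.card F - 1) = 1 := by rw [← hord]; exact pow_orderOf_eq_one ζ
  have hhN : h ^ (Fintype.card F - 1) = 1 := h_pow_of_RR hζN H0 (HR _)
  have PP : Pre φ h t (ζ ^ 2) :=
    { P with
      stein := by
        intro b hb
        obtain ⟨j, rfl⟩ := hgenζ b hb
        exact ⟨j, by rw [zpow_natCast]; exact HR j⟩ }
  rw [← hφ1] at hgen
  refine ⟨PP.card_le hgen _ (by omega) hhN, ?_⟩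
  intro j₀ hj₀ hj htt
  have h1 := tinv_of_RR P.add hj H0 (HR j₀)
  have h2 : t⁻¹ = t := inv_eq_of_mul_eq_one_left htt
  rw [h2] at h1
  have h3 : h ^ j₀ = 1 := by
    have := h1.symm
    rwa [mul_eq_right] at this
  exact (PP.card_le hgen j₀ hj₀ h3).2

/-- commutativity, generic case -/
theorem rC_generic {u h : Γ} {k l : ℕ}
    (r4a : u * (h ^ l * u * (h ^ l)⁻¹) * (h ^ l * u * (h ^ l)⁻¹ * u)⁻¹ = 1)
    (r4b : h ^ k * u * (h ^ k)⁻¹ * (u ^ 1 * (h ^ l * u * (h ^ l)⁻¹) ^ 1)⁻¹ = 1) (j : ℕ) :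
    Commute u ((h ^ l) ^ j * u * ((h ^ l) ^ j)⁻¹) := by
  rw [mul_inv_eq_one] at r4a r4b
  rw [pow_one, pow_one] at r4b
  have h1 : CC u h (l : ℤ) := by
    unfold CC; rw [zpow_natCast]; exact r4a
  have h2 := CC_row (u := u) (h := h) (k := (k : ℤ)) (l := (l : ℤ))
    (by rw [zpow_natCast, zpow_natCast]; exact r4b) h1 j
  unfold CC at h2
  have e : h ^ ((j : ℤ) * (l : ℤ)) = (h ^ l) ^ j := by
    rw [← pow_mul, ← zpow_natCast]; push_cast; ring_nf
  rwa [e] at h2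

/-- commutativity, exceptional case -/
theorem rC_exc {u h : Γ} {c : ℕ}
    (r4a : u * (h ^ 1 * u * (h ^ 1)⁻¹) * (h ^ 1 * u * (h ^ 1)⁻¹ * u)⁻¹ = 1)
    (r4b : h ^ 2 * u * (h ^ 2)⁻¹ * (u ^ c * (h ^ 1 * u * (h ^ 1)⁻¹) ^ 0)⁻¹ = 1) (j : ℕ) :
    Commute u ((h ^ 1) ^ j * u * ((h ^ 1) ^ j)⁻¹) := by
  rw [mul_inv_eq_one] at r4a r4b
  rw [pow_zero, mul_one] at r4b
  simp only [pow_one] at r4a ⊢
  have step : ∀ n : ℕ, Commute u (h ^ n * u * (h ^ n)⁻¹) →
      Commute u (h ^ (n + 2) * u * (h ^ (n + 2))⁻¹) := by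
    intro n hn
    have : h ^ (n + 2) * u * (h ^ (n + 2))⁻¹ = (h ^ n * u * (h ^ n)⁻¹) ^ c := by
      rw [conj_pow, ← r4b, pow_add]; group
    rw [this]; exact hn.pow_right c
  have key : ∀ n : ℕ, Commute u (h ^ n * u * (h ^ n)⁻¹) ∧
      Commute u (h ^ (n + 1) * u * (h ^ (n + 1))⁻¹) := by
    intro n
    induction n with
    | zero => exact ⟨by simp, by simp only [zero_add, pow_one]; exact r4a⟩
    | succ n ih => exact ⟨ih.2, step n ih.1⟩
  exact (key j).1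

end Odd

section Even

variable {F : Type*} [Field F] [Algebra (ZMod 2) F] {ζ : F} {k N : ℕ}
  {Lm : List ℕ} {Γ : Type*} [Group Γ]

theorem relsEven_of_model [CharP F 2] (hk : ζ ^ (2 * k) = 1 + ζ ^ 2)
    (hLm : pL 2 Lm = minpoly (ZMod 2) (ζ ^ 2))
    {φ : F → Γ} {h t : Γ} (P : Pre0 φ h t (ζ ^ 2)) (H0 : RR φ h t ζ 0) (hN : h ^ N = 1) :
    ∀ r ∈ relsEven k N Lm (φ 1) h t, r = 1 := by
  unfold RR at H0
  simp only [pow_zero, inv_one, one_mul] at H0
  intro r hr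
  simp only [relsEven, List.mem_cons, List.not_mem_nil, or_false] at hr
  rcases hr with rfl | rfl | rfl | rfl | rfl
  · rw [← phi_nat P.add, CharP.cast_eq_zero, zero_mul, phi_zero P.add]
  · rw [H0, mul_inv_cancel]
  · rw [P.inv, inv_mul_cancel]
  · rw [P.conj_pow, ← pow_mul, hk, mul_one, P.conj, mul_one, P.add, mul_inv_cancel]
  · rw [W_phi P.add P.conj, evL_Lm hLm, zero_mul, phi_zero P.add, hN, inv_one, mul_one]

theorem card_even [Fintype F]
    (ha : Algebra.adjoin (ZMod 2) {ζ ^ 2} = ⊤)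
    (hLm : pL 2 Lm = minpoly (ZMod 2) (ζ ^ 2))
    (hζ : ζ ≠ 0) (hgenζ : ∀ b : F, b ≠ 0 → ∃ i : ℕ, ζ ^ (2 * i) = b) (hN : 0 < N)
    {u h t : Γ} (hgen : Subgroup.closure ({u, h, t} : Set Γ) = ⊤)
    (hrel : ∀ r ∈ relsEven k N Lm u h t, r = 1) :
    Finite Γ ∧ Nat.card Γ ≤ Fintype.card F * N * (Fintype.card F + 1) := by
  haveI : Fact (Nat.Prime 2) := ⟨Nat.prime_two⟩
  simp only [relsEven, List.mem_cons, List.not_mem_nil, or_false, forall_eq_or_imp, forall_eq]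
    at hrel
  obtain ⟨r1, r2, r3, r4, r5⟩ := hrel
  rw [mul_inv_eq_one] at r2 r4 r5
  have r3' : t * h * t⁻¹ = h⁻¹ := eq_inv_of_mul_eq_one_left r3
  -- commutativity of u and its first conjugate
  have hc1 : Commute u (h * u * h⁻¹) := by
    have e1 : (u * (h * u * h⁻¹)) ^ 2 = 1 := by rw [← r4, conj_pow, r1]; group
    have e2 : (h * u * h⁻¹) ^ 2 = 1 := by rw [conj_pow, r1]; group
    have i1 : u⁻¹ = u := by
      apply inv_eq_of_mul_eq_one_left; rw [← pow_two]; exact r1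
    have i2 : (h * u * h⁻¹)⁻¹ = h * u * h⁻¹ := by
      apply inv_eq_of_mul_eq_one_left; rw [← pow_two]; exact e2
    have i3 : (u * (h * u * h⁻¹))⁻¹ = u * (h * u * h⁻¹) := by
      apply inv_eq_of_mul_eq_one_left; rw [← pow_two]; exact e1
    rw [_root_.mul_inv_rev, i1, i2] at i3
    exact i3.symm
  have rC : ∀ j : ℕ, Commute u (h ^ j * u * (h ^ j)⁻¹) := by
    intro j
    have h1 : CC u h (1 : ℤ) := by
      unfold CC; rw [zpow_one]; exact hc1
    have h2 := CC_row (u := u) (h := h) (k := (k : ℤ)) (l := (1 : ℤ))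
      (by rw [zpow_natCast, zpow_one]; exact r4) h1 j
    unfold CC at h2
    rwa [mul_one, zpow_natCast] at h2
  have hhN : h ^ N = 1 := z_trivial 2 u h r1 rC k N Lm r4 r5
  rw [hhN] at r5
  obtain ⟨φ, hφ1, P, -⟩ := pre0_of_rels 2 ζ hζ 1 Lm [0, 1] (by simpa using ha)
    (by simpa using hLm) (by simp [evL_cons]) u h t r1 r3' (by simpa using rC)
    (by simp [W_cons]) (by simpa using r5)
  have H0 : RR φ h t ζ 0 := by
    unfold RR
    simp only [pow_zero, inv_one, one_mul, hφ1]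
    exact r2
  have PP : Pre φ h t (ζ ^ 2) :=
    { P with
      stein := by
        intro b hb
        obtain ⟨i, rfl⟩ := hgenζ b hb
        have := RR_add_two_mul P H0 i
        rw [zero_add] at this
        exact ⟨((2 * i : ℕ) : ℤ), by rw [zpow_natCast]; exact this⟩ }
  rw [← hφ1] at hgen
  exact PP.card_le hgen N hN hhN

end Even

end Cfsg.Agent.Lib.Helper43Pres
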