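import Cfsg.Agent.Lib.Helper43PresF
import Cfsg.Agent.Lib.Helper6SL

set_option autoImplicit false

namespace Cfsg.Agent.Lib.Helper43Pres

open Matrix

section SL2

variable {F : Type*} [Field F]

/-- upper unitriangular -/
def Um (x : F) : SpecialLinearGroup (Fin 2) F := ⟨!![1, x; 0, 1], by simp [det_fin_two]⟩

/-- diagonal -/
def Hm (c : Fˣ) : SpecialLinearGroup (Fin 2) F :=
  ⟨!![(c : F), 0; 0, (c : F)⁻¹], by simp [det_fin_two]⟩

/-- Weyl element -/
def Tm : SpecialLinearGroup (Fin 2) F := ⟨!![0, 1; -1, 0], by simp [det_fin_two]⟩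

/-- inverse of the Weyl element -/
def Tm' : SpecialLinearGroup (Fin 2) F := ⟨!![0, -1; 1, 0], by simp [det_fin_two]⟩

theorem Tm_inv : (Tm : SpecialLinearGroup (Fin 2) F)⁻¹ = Tm' := by
  apply inv_eq_of_mul_eq_one_right
  apply Subtype.ext
  show (!![0, 1; -1, 0] : Matrix (Fin 2) (Fin 2) F) * !![0, -1; 1, 0] = 1
  simp [Matrix.mul_fin_two, Matrix.one_fin_two]

theorem Um_add (x y : F) : Um (x + y) = Um x * Um y := by
  apply Subtype.ext
  show (!![1, x + y; 0, 1] : Matrix (Fin 2) (Fin 2) F) = !![1, x; 0, 1] * !![1, y; 0, 1]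
  simp [Matrix.mul_fin_two, add_comm]

theorem Hm_mul (c d : Fˣ) : Hm (c * d) = Hm c * Hm d := by
  apply Subtype.ext
  show (!![((c * d : Fˣ) : F), 0; 0, ((c * d : Fˣ) : F)⁻¹] : Matrix (Fin 2) (Fin 2) F)
    = !![(c : F), 0; 0, (c : F)⁻¹] * !![(d : F), 0; 0, (d : F)⁻¹]
  simp [Matrix.mul_fin_two, mul_comm]

theorem Hm_one : Hm (1 : Fˣ) = 1 := by
  apply Subtype.ext
  show (!![((1 : Fˣ) : F), 0; 0, ((1 : Fˣ) : F)⁻¹] : Matrix (Fin 2) (Fin 2) F) = 1
  simp [Matrix.one_fin_two]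

theorem Hm_pow (c : Fˣ) (n : ℕ) : Hm c ^ n = Hm (c ^ n) := by
  induction n with
  | zero => simp [Hm_one]
  | succ n ih => rw [pow_succ, pow_succ, ih, Hm_mul]

theorem Hm_inv (c : Fˣ) : (Hm c)⁻¹ = Hm c⁻¹ := by
  apply inv_eq_of_mul_eq_one_right
  rw [← Hm_mul, mul_inv_cancel, Hm_one]

theorem Hm_conj (c : Fˣ) (x : F) : Hm c * Um x * (Hm c)⁻¹ = Um ((c : F) ^ 2 * x) := by
  rw [Hm_inv]
  apply Subtype.ext
  show (!![(c : F), 0; 0, (c : F)⁻¹] : Matrix (Fin 2) (Fin 2) F) * !![1, x; 0, 1]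
    * !![((c⁻¹ : Fˣ) : F), 0; 0, ((c⁻¹ : Fˣ) : F)⁻¹] = !![1, (c : F) ^ 2 * x; 0, 1]
  simp [Matrix.mul_fin_two]
  ring

theorem Tm_conj (c : Fˣ) : Tm * Hm c * Tm⁻¹ = (Hm c)⁻¹ := by
  rw [Hm_inv, Tm_inv]
  apply Subtype.ext
  show (!![0, 1; -1, 0] : Matrix (Fin 2) (Fin 2) F) * !![(c : F), 0; 0, (c : F)⁻¹]
    * !![0, -1; 1, 0] = !![((c⁻¹ : Fˣ) : F), 0; 0, ((c⁻¹ : Fˣ) : F)⁻¹]
  simp [Matrix.mul_fin_two]

theorem stein_SL (c : Fˣ) : Um (c : F) * Tm * Um (c : F)⁻¹ * Tm⁻¹ * Um (c : F) = Hm c * Tm := by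
  rw [Tm_inv]
  apply Subtype.ext
  show (!![1, (c : F); 0, 1] : Matrix (Fin 2) (Fin 2) F) * !![0, 1; -1, 0] * !![1, (c : F)⁻¹; 0, 1]
    * !![0, -1; 1, 0] * !![1, (c : F); 0, 1] = !![(c : F), 0; 0, (c : F)⁻¹] * !![0, 1; -1, 0]
  simp [Matrix.mul_fin_two]

theorem sl_pre0 (c : Fˣ) : Pre0 (Um : F → _) (Hm c) Tm ((c : F) ^ 2) where
  add := Um_add
  conj := Hm_conj c
  z_ne := pow_ne_zero _ c.ne_zero
  inv := Tm_conj c

theorem sl_RR (c : Fˣ) (j : ℕ) : RR (Um : F → _) (Hm c) Tm (c : F) j := by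
  unfold RR
  have := stein_SL (c ^ j)
  rw [Hm_pow]
  simpa using this

theorem sl_gen (p : ℕ) [Fact p.Prime] [Algebra (ZMod p) F] (c : Fˣ)
    (ha : Algebra.adjoin (ZMod p) {(c : F) ^ 2} = ⊤) :
    Subgroup.closure ({Um (1 : F), Hm c, Tm} : Set (SpecialLinearGroup (Fin 2) F)) = ⊤ := by
  set K := Subgroup.closure ({Um (1 : F), Hm c, Tm} : Set (SpecialLinearGroup (Fin 2) F)) with hK
  have hu : Um (1 : F) ∈ K := Subgroup.subset_closure (by simp)
  have hh : Hm c ∈ K := Subgroup.subset_closure (by simp)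
  have ht : (Tm : SpecialLinearGroup (Fin 2) F) ∈ K := Subgroup.subset_closure (by simp)
  have hU : ∀ x : F, Um x ∈ K := by
    intro x
    have : x ∈ Algebra.adjoin (ZMod p) {(c : F) ^ 2} := by rw [ha]; trivial
    rw [Algebra.adjoin_singleton_eq_range_aeval] at this
    obtain ⟨f, hf⟩ := this
    obtain ⟨L, rfl⟩ := exists_pL p f
    have hx : evL ((c : F) ^ 2) L = x := by rw [← aeval_pL p]; exact hf
    have := W_phi (φ := (Um : F → _)) Um_add (Hm_conj c) 1 L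
    rw [mul_one, hx] at this
    rw [← this]
    exact W_mem K hu hh L
  rw [eq_top_iff]
  intro A _
  refine Cfsg.Agent.Lib.Helper6SL.transvection_induction (fun A => A ∈ K) ?_
    (fun A B hA hB => K.mul_mem hA hB) A
  intro i j hij x
  fin_cases i <;> fin_cases j
  · exact absurd rfl hij
  · have : SpecialLinearGroup.transvection hij x = Um x := by
      apply Subtype.ext
      show (SpecialLinearGroup.transvection hij x : Matrix (Fin 2) (Fin 2) F) = !![1, x; 0, 1]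
      ext a b
      fin_cases a <;> fin_cases b <;>
        simp [SpecialLinearGroup.transvection_coe, Matrix.single_apply]
    rw [this]; exact hU x
  · have : SpecialLinearGroup.transvection hij x = Tm * Um (-x) * Tm⁻¹ := by
      rw [Tm_inv]
      apply Subtype.ext
      show (SpecialLinearGroup.transvection hij x : Matrix (Fin 2) (Fin 2) F)
        = !![0, 1; -1, 0] * !![1, -x; 0, 1] * !![0, -1; 1, 0]
      ext a b
      fin_cases a <;> fin_cases b <;>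
        simp [SpecialLinearGroup.transvection_coe, Matrix.single_apply,
          Matrix.mul_fin_two]
    rw [this]; exact K.mul_mem (K.mul_mem ht (hU _)) (K.inv_mem ht)
  · exact absurd rfl hij

end SL2

end Cfsg.Agent.Lib.Helper43Pres
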