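import Mathlib
import Cfsg.Agent.Lib.Helper43P3C

set_option autoImplicit false

/-! Vocabulary of project 143: Steinberg presentations of `SL_2(K)` (S2426) and `SL_n(K)` (S2401). -/

namespace Cfsg.Agent.Lib.Helper43R1

/-- rank one Steinberg data: two additive families `x`, `y` with
`w(t) x(u) w(t)⁻¹ = y(-t⁻² u)`, `w(t) = x(t) y(-t⁻¹) x(t)`. -/
structure R1 (K : Type*) [Field K] (P : Type*) [Group P] where
  x : K → P
  y : K → P
  xadd : ∀ s t, x (s + t) = x s * x t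
  yadd : ∀ s t, y (s + t) = y s * y t
  bx : ∀ t u, t ≠ 0 → (x t * y (-t⁻¹) * x t) * x u * (x t * y (-t⁻¹) * x t)⁻¹ = y (-(t⁻¹ ^ 2 * u))

namespace R1

variable {K : Type*} [Field K] {P : Type*} [Group P] (R : R1 K P)

def w (t : K) : P := R.x t * R.y (-t⁻¹) * R.x t

def w' (t : K) : P := R.y t * R.x (-t⁻¹) * R.y t

def h (t : K) : P := R.w t * (R.w 1)⁻¹

/-- the family generates -/
def Gen : Prop := Subgroup.closure (Set.range R.x ∪ Set.range R.y) = ⊤

/-- `U = x(K)` -/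
def U : Subgroup P := Subgroup.closure (Set.range R.x)

/-- `H = h(K^*)` -/
def H : Subgroup P := Subgroup.closure {g | ∃ t, t ≠ 0 ∧ g = R.h t}

end R1

/-- Steinberg relations of type `A_{n-1}` in a group `Γ`. -/
structure StR (n : ℕ) (K : Type*) [Field K] (Γ : Type*) [Group Γ] where
  x : Fin n → Fin n → K → Γ
  add : ∀ i j, i ≠ j → ∀ s t, x i j (s + t) = x i j s * x i j t
  comm : ∀ i j k l, i ≠ j → k ≠ l → i ≠ l → j ≠ k → ∀ s t, Commute (x i j s) (x k l t)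
  chain : ∀ i j k, i ≠ j → j ≠ k → i ≠ k → ∀ s t,
    x i j s * x j k t * (x i j s)⁻¹ * (x j k t)⁻¹ = x i k (s * t)

namespace StR

variable {n : ℕ} {K : Type*} [Field K] {Γ : Type*} [Group Γ] (S : StR n K Γ)

def w (i j : Fin n) (a : K) : Γ := S.x i j a * S.x j i (-a⁻¹) * S.x i j a

def hh (i j : Fin n) (a : K) : Γ := S.w i j a * (S.w i j 1)⁻¹

end StR

/-- index type of the Steinberg generators -/
abbrev Ix (n : ℕ) := {ij : Fin n × Fin n // ij.1 ≠ ij.2}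

/-- the relators of S2401 -/
def stRels (n : ℕ) (K : Type*) [Field K] : Set (FreeGroup (Ix n × K)) :=
  ({g : FreeGroup ({ij : Fin n × Fin n // ij.1 ≠ ij.2} × K) | ∃ (a : {ij : Fin n × Fin n // ij.1 ≠ ij.2}) (t u : K),
            g = FreeGroup.of (a, t) * FreeGroup.of (a, u) * (FreeGroup.of (a, t + u))⁻¹} ∪
          {g | ∃ (a b : {ij : Fin n × Fin n // ij.1 ≠ ij.2}) (t u : K), a.1.1 ≠ b.1.2 ∧ a.1.2 ≠ b.1.1 ∧
            g = FreeGroup.of (a, t) * FreeGroup.of (b, u) * (FreeGroup.of (a, t))⁻¹ * (FreeGroup.of (b, u))⁻¹} ∪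
          {g | ∃ (a b : {ij : Fin n × Fin n // ij.1 ≠ ij.2}) (h : a.1.1 ≠ b.1.2) (t u : K), a.1.2 = b.1.1 ∧
            g = FreeGroup.of (a, t) * FreeGroup.of (b, u) * (FreeGroup.of (a, t))⁻¹ * (FreeGroup.of (b, u))⁻¹ *
              (FreeGroup.of (⟨(a.1.1, b.1.2), h⟩, t * u))⁻¹})

/-- the Steinberg group `St_n(K)` -/
abbrev StG (n : ℕ) (K : Type*) [Field K] := PresentedGroup (stRels n K)

end Cfsg.Agent.Lib.Helper43R1
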