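import Mathlib
import Cfsg.Agent.Lib.Helper43BPDefs
import Cfsg.Agent.Lib.Helper43StDefs

set_option autoImplicit false

/-! Vocabulary of project 243 (S2411 = two generation of `PSp_{2m}(q)`, S2292 = bounded
presentation of `PSp_{2m}(q)`): elementary symplectic matrices indexed by signed indices,
Steinberg systems of type `C_m`, gluing of `A_m` and `Sp_4(F)`. -/

namespace Cfsg.Agent.Lib.Helper43Sp

open Matrix Cfsg.Agent.Lib.Helper43St

/-- signed indices: `inl i` is `e_i`, `inr i` is `f_i = e_{-i}` -/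
abbrev I (m : ℕ) := Fin m ⊕ Fin m

/-- `a ↦ -a` -/
def ng {m : ℕ} : I m → I m := Sum.swap

/-- `a ↦ |a|` -/
def ab {m : ℕ} : I m → Fin m := Sum.elim id id

/-- the sign of a signed index -/
def sg {m : ℕ} (F : Type*) [Field F] : I m → F := Sum.elim (fun _ => 1) (fun _ => -1)

/-- position in the order `e_0 < e_1 < ... < e_{m-1} < f_{m-1} < ... < f_0` -/
def rk {m : ℕ} : I m → ℕ := Sum.elim (fun i => i.val) (fun i => 2 * m - 1 - i.val)

/-- action of a permutation of `Fin m` on signed indices -/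
def pmI {m : ℕ} (σ : Equiv.Perm (Fin m)) : I m → I m := Sum.map σ σ

/-- the `2m`-cycle `e_0 → e_1 → ... → e_{m-1} → f_0 → f_1 → ... → f_{m-1} → e_0` -/
def gam {m : ℕ} : I m → I m
  | Sum.inl i => if h : i.val + 1 < m then Sum.inl ⟨i.val + 1, h⟩ else Sum.inr ⟨0, by omega⟩
  | Sum.inr i => if h : i.val + 1 < m then Sum.inr ⟨i.val + 1, h⟩ else Sum.inl ⟨0, by omega⟩

/-- the embedding of signed indices attached to two indices `i`, `j` -/
def e2 {m : ℕ} (i j : Fin m) : I 2 → I m := Sum.map ![i, j] ![i, j]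

/-- `Sp_{2m}(F)` -/
abbrev Sp (m : ℕ) (F : Type*) [Field F] := ↥(Matrix.symplecticGroup (Fin m) F)

section matrices

variable {m : ℕ} {F : Type*} [Field F]

/-- `1 + t E_{a,-a}`, resp. `1 + t E_{ab} - ε_a ε_b t E_{-b,-a}` -/
def Xm (a b : I m) (t : F) : Matrix (I m) (I m) F :=
  if b = ng a then 1 + Matrix.single a b t
  else 1 + Matrix.single a b t - Matrix.single (ng b) (ng a) (sg F a * sg F b * t)

open Classical in
/-- the elementary symplectic matrix `X_{ab}(t)` (`a ≠ b`); root `ε_a - ε_b`, `ε_{-i} = -ε_i`.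
(`X_val`: its matrix is `Xm a b t`.) -/
noncomputable def X (a b : I m) (t : F) : Sp m F :=
  if h : a ≠ b ∧ Xm a b t ∈ Matrix.symplecticGroup (Fin m) F then ⟨Xm a b t, h.2⟩ else 1

/-- the character `d ↦ d_a` of the torus -/
def chi (d : Fin m → Fˣ) : I m → Fˣ := Sum.elim d (fun i => (d i)⁻¹)

def Dm (d : Fin m → Fˣ) : Matrix (I m) (I m) F := Matrix.diagonal (fun a => ((chi d a : Fˣ) : F))

open Classical in
/-- the torus element `diag(d, d⁻¹)` -/
noncomputable def D (d : Fin m → Fˣ) : Sp m F :=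
  if h : Dm d ∈ Matrix.symplecticGroup (Fin m) F then ⟨Dm d, h⟩ else 1

def Pm (F : Type*) [Field F] (σ : Equiv.Perm (Fin m)) : Matrix (I m) (I m) F :=
  Matrix.of (fun a b => if a = pmI σ b then 1 else 0)

open Classical in
/-- the permutation matrix `e_i ↦ e_{σ i}`, `f_i ↦ f_{σ i}` -/
noncomputable def PM (F : Type*) [Field F] (σ : Equiv.Perm (Fin m)) : Sp m F :=
  if h : Pm F σ ∈ Matrix.symplecticGroup (Fin m) F then ⟨Pm F σ, h⟩ else 1

def Cm (m : ℕ) (F : Type*) [Field F] : Matrix (I m) (I m) F :=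
  Matrix.of (fun a b => if a = gam b then (if rk b = m then -1 else 1) else 0)

open Classical in
/-- the Coxeter element `e_0 ↦ e_1 ↦ ... ↦ e_{m-1} ↦ f_0 ↦ ... ↦ f_{m-1} ↦ -e_0` -/
noncomputable def cx (m : ℕ) (F : Type*) [Field F] : Sp m F :=
  if h : Cm m F ∈ Matrix.symplecticGroup (Fin m) F then ⟨Cm m F, h⟩ else 1

/-- `g` on the coordinates `±i, ±j`, the identity on the others -/
def Em (i j : Fin m) (g : Matrix (I 2) (I 2) F) : Matrix (I m) (I m) F :=
  Matrix.of (fun a b => (∑ c, ∑ d, if a = e2 i j c ∧ b = e2 i j d then g c d else 0) +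
    (if a = b ∧ ab a ≠ i ∧ ab a ≠ j then 1 else 0))

/-- `(z_i)` acting on the planes `<e_i, f_i>` -/
def Km (z : Fin m → SpecialLinearGroup (Fin 2) F) : Matrix (I m) (I m) F :=
  Matrix.fromBlocks (Matrix.diagonal fun i => z i 0 0) (Matrix.diagonal fun i => z i 0 1)
    (Matrix.diagonal fun i => z i 1 0) (Matrix.diagonal fun i => z i 1 1)

/-- `w_{ab}(u)` in `Sp_{2m}(F)` -/
noncomputable def wX (a b : I m) (u : F) : Sp m F := X a b u * X b a (-u⁻¹) * X a b u

/-- `h_{ab}(u)` in `Sp_{2m}(F)` -/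
noncomputable def hX (a b : I m) (u : F) : Sp m F := wX a b u * (wX a b 1)⁻¹

/-- the whole root subgroup lies in `K` -/
def Full (K : Subgroup (Sp m F)) (a b : I m) : Prop := ∀ t, X a b t ∈ K

end matrices

/-- Steinberg system of type `C_m` in a group `P` over `Sp_{2m}(F)`. -/
structure CSys (m : ℕ) (F : Type*) [Field F] (P : Type*) [Group P] where
  x : I m → I m → F → P
  sym : ∀ a b t, ab a ≠ ab b → x a b t = x (ng b) (ng a) (-(sg F a * sg F b * t))
  tri : ∀ τ : Fin 3 → I m, Function.Injective (ab ∘ τ) →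
    ∃ f : SpecialLinearGroup (Fin 3) F →* P, ∀ p q t, p ≠ q → f (tv p q t) = x (τ p) (τ q) t
  quad : ∀ i j : Fin m, i ≠ j →
    ∃ f : Sp 2 F →* P, ∀ c d t, c ≠ d → f (X c d t) = x (e2 i j c) (e2 i j d) t
  dis : ∀ a b c d : I m, a ≠ b → c ≠ d → ab a ≠ ab c → ab a ≠ ab d → ab b ≠ ab c → ab b ≠ ab d →
    ∀ s t, Commute (x a b s) (x c d t)
  π : P →* Sp m F
  hπ : ∀ a b t, a ≠ b → π (x a b t) = X a b t
  gen : Subgroup.closure {g | ∃ a b t, a ≠ b ∧ g = x a b t} = ⊤

namespace CSys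

variable {m : ℕ} {F : Type*} [Field F] {P : Type*} [Group P] (S : CSys m F P)

def w (a b : I m) (u : F) : P := S.x a b u * S.x b a (-u⁻¹) * S.x a b u

def hh (a b : I m) (u : F) : P := S.w a b u * (S.w a b 1)⁻¹

/-- the long coroot elements -/
def hl (i : Fin m) (u : F) : P := S.hh (Sum.inl i) (Sum.inr i) u

/-- generated by the positive root elements -/
def U : Subgroup P := Subgroup.closure {g | ∃ a b t, rk a < rk b ∧ g = S.x a b t}

/-- generated by the root elements of the roots `e_i + e_j`, `2 e_i` -/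
def Q : Subgroup P := Subgroup.closure {g | ∃ i j t, g = S.x (Sum.inl i) (Sum.inr j) t}

/-- the same without the root `2 e_l` -/
def Q' (l : Fin m) : Subgroup P :=
  Subgroup.closure {g | ∃ i j t, (i, j) ≠ (l, l) ∧ g = S.x (Sum.inl i) (Sum.inr j) t}

/-- the torus -/
def H : Subgroup P := Subgroup.closure {g | ∃ i u, u ≠ 0 ∧ g = S.hl i u}

end CSys

/-- the simple roots `e_i - e_{i+1}`, `2 e_{m-1}` -/
def Simple {m : ℕ} (a b : I m) : Prop := rk b = rk a + 1 ∧ rk a < m

namespace CSys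

variable {m : ℕ} {F : Type*} [Field F] {P : Type*} [Group P] (S : CSys m F P)

/-- generated by the simple reflections -/
def N : Subgroup P := Subgroup.closure {g | ∃ a b, Simple a b ∧ g = S.w a b 1}

end CSys

/-- the signed permutation induced by the reflection in the root `(a, b)` -/
def sw {m : ℕ} (a b : I m) : Equiv.Perm (I m) :=
  if b = ng a then Equiv.swap a b else Equiv.swap a b * Equiv.swap (ng a) (ng b)

end Cfsg.Agent.Lib.Helper43Sp
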