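import Cfsg.Agent.Lib.Helper43SpDefs

set_option autoImplicit false

/-! Vocabulary of project 243, wave 3: gluing `A_n` and `Sp_4(F)` to `Sp_{2n}(F)`, `n = m + 3`. -/

namespace Cfsg.Agent.Lib.Helper43Sp

open Matrix Cfsg.Agent.Lib.Helper43BP Cfsg.Agent.Lib.Helper43St

/-- a `CSys` without the `SL_3`'s, but with an action of the symmetric group -/
structure PSys (m : ℕ) (F : Type*) [Field F] (P : Type*) [Group P] where
  x : I m → I m → F → P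
  sym : ∀ a b t, ab a ≠ ab b → x a b t = x (ng b) (ng a) (-(sg F a * sg F b * t))
  quad : ∀ i j : Fin m, i ≠ j →
    ∃ f : Sp 2 F →* P, ∀ c d t, c ≠ d → f (X c d t) = x (e2 i j c) (e2 i j d) t
  dis : ∀ a b c d : I m, a ≠ b → c ≠ d → ab a ≠ ab c → ab a ≠ ab d → ab b ≠ ab c → ab b ≠ ab d →
    ∀ s t, Commute (x a b s) (x c d t)
  π : P →* Sp m F
  hπ : ∀ a b t, a ≠ b → π (x a b t) = X a b t
  gen : Subgroup.closure {g | ∃ a b t, a ≠ b ∧ g = x a b t} = ⊤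
  θ : Equiv.Perm (Fin m) →* P
  hθ : ∀ ρ a b t, a ≠ b → θ ρ * x a b t * (θ ρ)⁻¹ = x (pmI ρ a) (pmI ρ b) t

namespace PSys

variable {m : ℕ} {F : Type*} [Field F] {P : Type*} [Group P] (Y : PSys m F P)

def w (a b : I m) (u : F) : P := Y.x a b u * Y.x b a (-u⁻¹) * Y.x a b u

def hh (a b : I m) (u : F) : P := Y.w a b u * (Y.w a b 1)⁻¹

def hl (i : Fin m) (u : F) : P := Y.hh (Sum.inl i) (Sum.inr i) u

end PSys

/-- replace the index of a signed index by `k : Fin 2` -/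
def lw {m : ℕ} (k : Fin 2) : I m → I 2 := Sum.map (fun _ => k) (fun _ => k)

/-- `v = x_{e_0 - e_1}(1)` in `Sp_4(F)` -/
noncomputable def vv (F : Type*) [Field F] : Sp 2 F := X (Sum.inl 0) (Sum.inl 1) 1

/-- the data obtained in a group `P` glued from `S_n` and `Sp_4(F)`, `n = m + 3`. -/
structure GC (m : ℕ) (F : Type*) [Field F] (P : Type*) [Group P] where
  θ : Equiv.Perm (Fin (m + 3)) →* P
  ι : Sp 2 F →* P
  π : P →* Sp (m + 3) F
  k1 : θ (Equiv.swap 0 1) = ι (PM F (Equiv.swap 0 1))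
  k2 : ∀ σ : Equiv.Perm (Fin (m + 3)), σ 0 = 0 → ∀ a : I 2, ab a = 0 → ∀ t,
    Commute (θ σ) (ι (X a (ng a) t))
  k3 : ∀ σ : Equiv.Perm (Fin (m + 3)), σ 0 = 0 → σ 1 = 1 → Commute (θ σ) (ι (vv F))
  k4 : ∀ a : I 2, ab a = 0 → ∀ t,
    Commute (θ (Equiv.swap 0 2) * ι (X a (ng a) t) * (θ (Equiv.swap 0 2))⁻¹) (ι (vv F))
  k5 : ∀ σ : Equiv.Perm (Fin (m + 3)), σ 0 ≠ 0 → σ 0 ≠ 1 → σ 1 ≠ 0 → σ 1 ≠ 1 →
    Commute (ι (vv F)) (θ σ * ι (vv F) * (θ σ)⁻¹)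
  k6 : ι (vv F) * (θ (c3 0 1 2) * ι (vv F) * (θ (c3 0 1 2))⁻¹) * (ι (vv F))⁻¹ *
      (θ (c3 0 1 2) * ι (vv F) * (θ (c3 0 1 2))⁻¹)⁻¹ =
      θ (Equiv.swap 1 2) * ι (vv F) * (θ (Equiv.swap 1 2))⁻¹
  k7 : Commute (ι (vv F)) (θ (Equiv.swap 1 2) * ι (vv F) * (θ (Equiv.swap 1 2))⁻¹)
  gen : Subgroup.closure (Set.range θ ∪ Set.range ι) = ⊤
  hπθ : ∀ σ, π (θ σ) = PM F σ
  hπι : ∀ g, ((π (ι g) : Sp (m + 3) F) : Matrix (I (m + 3)) (I (m + 3)) F) = Em 0 1 g.1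

open Classical in
/-- the root elements of a glued group -/
noncomputable def GC.x {m : ℕ} {F : Type*} [Field F] {P : Type*} [Group P] (G : GC m F P)
    (a b : I (m + 3)) (t : F) : P :=
  if h : ∃ σ : Equiv.Perm (Fin (m + 3)), σ 0 = ab a ∧ σ 1 = ab b then
    G.θ h.choose * G.ι (X (lw 0 a) (lw 1 b) t) * (G.θ h.choose)⁻¹
  else G.θ (Equiv.swap 0 (ab a)) * G.ι (X (lw 0 a) (lw 0 b) t) * (G.θ (Equiv.swap 0 (ab a)))⁻¹

/-- the alternating group of degree `m + 3` -/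
abbrev Am (m : ℕ) := ↥(alternatingGroup (Fin (m + 3)))

/-- the free product `A_n * Sp_4(F)` -/
abbrev CQ (m : ℕ) (F : Type*) [Field F] := Monoid.Coprod (Am m) (Sp 2 F)

open Classical in
/-- an even permutation in the free product (`1` for odd ones) -/
noncomputable def aw {m : ℕ} (F : Type*) [Field F] (σ : Equiv.Perm (Fin (m + 3))) : CQ m F :=
  if h : σ ∈ alternatingGroup (Fin (m + 3)) then Monoid.Coprod.inl ⟨σ, h⟩ else 1

/-- `inr` -/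
def jr {m : ℕ} {F : Type*} [Field F] (g : Sp 2 F) : CQ m F := Monoid.Coprod.inr g

open Classical in
/-- a permutation as a word in the free product: the odd ones use `(0 1) = PM (0 1) ∈ Sp_4(F)` -/
noncomputable def hw {m : ℕ} (F : Type*) [Field F] (σ : Equiv.Perm (Fin (m + 3))) : CQ m F :=
  if σ ∈ alternatingGroup (Fin (m + 3)) then aw F σ
  else aw F (σ * Equiv.swap 0 1) * jr (PM F (Equiv.swap 0 1))

/-- commutator word -/
def cmw {G : Type*} [Group G] (x y : G) : G := x * y * x⁻¹ * y⁻¹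

/-- conjugation word -/
def cjw {G : Type*} [Group G] (x y : G) : G := x * y * x⁻¹

open Classical in
/-- the three generators of the long root `SL_2` at the index `0` -/
noncomputable def gl (F : Type*) [Field F] (ζ : F) : Finset (Sp 2 F) :=
  {X (Sum.inl 0) (Sum.inr 0) 1, hX (Sum.inl 0) (Sum.inr 0) ζ, wX (Sum.inl 0) (Sum.inr 0) 1}

open Classical in
/-- the (at most) 16 gluing relators in `A_n * Sp_4(F)` -/
noncomputable def relS (m : ℕ) (F : Type*) [Field F]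
    (a1 a2 b1 b2 c1 c2 : Equiv.Perm (Fin (m + 3))) (ζ : F) : Finset (CQ m F) :=
  (({a1, a2} : Finset (Equiv.Perm (Fin (m + 3)))).image (fun a =>
    cjw (jr (PM F (Equiv.swap 0 1))) (aw F a) * (aw F (Equiv.swap 0 1 * a * Equiv.swap 0 1))⁻¹)) ∪
  ((({b1, b2} : Finset (Equiv.Perm (Fin (m + 3)))) ×ˢ gl F ζ).image
    (fun z => cmw (hw F z.1) (jr z.2))) ∪
  (({c1, c2} : Finset (Equiv.Perm (Fin (m + 3)))).image (fun c => cmw (hw F c) (jr (vv F)))) ∪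
  ((gl F ζ).image (fun g => cmw (cjw (hw F (Equiv.swap 0 2)) (jr g)) (jr (vv F)))) ∪
  (if m = 0 then ∅ else
    {cmw (jr (vv F)) (cjw (hw F (Equiv.swap 0 2 * Equiv.swap 1 3)) (jr (vv F)))}) ∪
  {cmw (jr (vv F)) (cjw (hw F (c3 0 1 2)) (jr (vv F))) *
    (cjw (hw F (Equiv.swap 1 2)) (jr (vv F)))⁻¹} ∪
  {cmw (jr (vv F)) (cjw (hw F (Equiv.swap 1 2)) (jr (vv F)))}

end Cfsg.Agent.Lib.Helper43Sp
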