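import Mathlib

set_option autoImplicit false
set_option linter.unusedSectionVars false

namespace Cfsg.Agent.Lib.Helper43Syl2

open MulAction Equiv Equiv.Perm Set
open scoped Pointwise Nat


/-- Orbits of a Sylow `p`-subgroup: the `p`-part of the length of the `G`-orbit divides the length
of the `P`-orbit. -/
theorem sylow_orbit_dvd {G X : Type*} [Group G] [Finite G] [MulAction G X] {p : ℕ}
    [hp : Fact p.Prime] (P : Sylow p G) (x : X) (k : ℕ) (hk : p ^ k ∣ (orbit G x).ncard) :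
    p ^ k ∣ (orbit (P : Subgroup G) x).ncard := by
  have h1 : Nat.card (stabilizer G x) * (orbit G x).ncard = Nat.card G := by
    rw [← index_stabilizer, Subgroup.card_mul_index]
  have h2 : Nat.card (stabilizer (P : Subgroup G) x) * (orbit (P : Subgroup G) x).ncard
      = Nat.card (P : Subgroup G) := by
    rw [← index_stabilizer, Subgroup.card_mul_index]
  have h3 : Nat.card (stabilizer (P : Subgroup G) x) ∣ Nat.card (stabilizer G x) := by
    have : (stabilizer (P : Subgroup G) x).map (P : Subgroup G).subtype ≤ stabilizer G x := by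
      rintro _ ⟨g, hg, rfl⟩
      exact hg
    have h := Subgroup.card_dvd_of_le this
    rwa [Subgroup.card_map_of_injective (Subgroup.subtype_injective _)] at h
  have h4 : Nat.card (P : Subgroup G) = p ^ (Nat.card G).factorization p := P.card_eq_multiplicity
  have hG : Nat.card G ≠ 0 := Nat.card_pos.ne'
  have ha : (orbit G x).ncard ≠ 0 := by
    intro h; rw [h, mul_zero] at h1; exact hG h1.symm
  have hb : Nat.card (stabilizer G x) ≠ 0 := Nat.card_pos.ne'
  obtain ⟨j, hj⟩ := IsPGroup.iff_card.1 (P.2.to_subgroup (stabilizer (P : Subgroup G) x))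
  have hjb : j ≤ (Nat.card (stabilizer G x)).factorization p := by
    rw [hj] at h3
    exact (hp.out.pow_dvd_iff_le_factorization hb).1 h3
  have hka : k ≤ ((orbit G x).ncard).factorization p :=
    (hp.out.pow_dvd_iff_le_factorization ha).1 hk
  rw [h4, ← h1, Nat.factorization_mul hb ha, hj] at h2
  simp only [Finsupp.coe_add, Pi.add_apply] at h2
  obtain ⟨e, he⟩ := Nat.exists_eq_add_of_le hjb
  rw [he, add_assoc, pow_add] at h2
  have h5 := Nat.eq_of_mul_eq_mul_left (pow_pos hp.out.pos j) h2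
  rw [h5]
  exact pow_dvd_pow p (by omega)


variable {α : Type*} [Fintype α] [DecidableEq α]


theorem exists_conj_mem_sylow {G : Type*} [Group G] [Finite G] {p : ℕ} [Fact p.Prime]
    (P : Sylow p G) (x : G) (k : ℕ) (hx : x ^ p ^ k = 1) : ∃ g : G, g * x * g⁻¹ ∈ P := by
  have h1 : IsPGroup p (Subgroup.zpowers x) := by
    rintro ⟨y, hy⟩
    obtain ⟨j, rfl⟩ := Subgroup.mem_zpowers_iff.1 hy
    refine ⟨k, ?_⟩
    ext
    simp only [SubmonoidClass.mk_pow, OneMemClass.coe_one]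
    rw [← zpow_natCast, ← zpow_mul, mul_comm, zpow_mul, zpow_natCast, hx, one_zpow]
  obtain ⟨Q, hQ⟩ := h1.exists_le_sylow
  obtain ⟨g, hg⟩ := MulAction.exists_smul_eq G Q P
  refine ⟨g, ?_⟩
  rw [← hg]
  have : x ∈ Q := hQ (Subgroup.mem_zpowers x)
  show g * x * g⁻¹ ∈ ((g • Q : Sylow p G) : Subgroup G)
  rw [Sylow.smul_def, Sylow.pointwise_smul_def]
  exact ⟨x, this, rfl⟩

theorem exists_swap_mem (P : Sylow 2 (Perm α)) (h : 2 ≤ Fintype.card α) :
    ∃ a b : α, a ≠ b ∧ swap a b ∈ P := by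
  obtain ⟨a, b, hab⟩ := Fintype.exists_pair_of_one_lt_card (by omega : 1 < Fintype.card α)
  obtain ⟨g, hg⟩ := exists_conj_mem_sylow P (swap a b) 1 (by simp [pow_two])
  refine ⟨g a, g b, fun h => hab (g.injective h), ?_⟩
  rwa [Equiv.swap_apply_apply]

theorem swap_mem_absurd (P : Sylow 2 (Perm α)) {a b c : α} (hab : a ≠ b) (hac : a ≠ c)
    (hbc : b ≠ c) (h1 : swap a b ∈ P) (h2 : swap a c ∈ P) : False := by
  have h3 := isThreeCycle_swap_mul_swap_same hab hac hbc
  obtain ⟨k, hk⟩ := P.2 ⟨_, P.mul_mem h1 h2⟩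
  have hk' : (swap a b * swap a c) ^ 2 ^ k = 1 := by
    have := congrArg Subtype.val hk
    simpa using this
  have := orderOf_dvd_of_pow_eq_one hk'
  rw [h3.orderOf] at this
  have h32 : 3 ∣ 2 := Nat.Prime.dvd_of_dvd_pow Nat.prime_three this
  omega



theorem trans_rest {G : Type*} [Group G] [Finite G] [MulAction G α]
    (h2 : ∀ a b c d : α, a ≠ b → c ≠ d → ∃ g : G, g • a = c ∧ g • b = d)
    (R : Sylow 2 G) (k : ℕ) (hn : Fintype.card α = 2 ^ k + 1) (x₀ : α)
    (hx₀ : ∀ r ∈ R, r • x₀ = x₀) (y w : α) (hy : y ≠ x₀) (hw : w ≠ x₀) :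
    ∃ r ∈ R, r • y = w := by
  have horb : orbit G (x₀, y) = ((Finset.univ : Finset α).offDiag : Set (α × α)) := by
    ext p
    simp only [Finset.coe_offDiag, Finset.coe_univ, Set.mem_offDiag, Set.mem_univ, true_and]
    constructor
    · rintro ⟨g, rfl⟩
      intro h
      exact hy (MulAction.injective g h).symm
    · intro h
      obtain ⟨g, h1, h2⟩ := h2 x₀ y p.1 p.2 (Ne.symm hy) h
      exact ⟨g, Prod.ext h1 h2⟩
  have hcard : (orbit G (x₀, y)).ncard = (2 ^ k + 1) * 2 ^ k := by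
    rw [horb, Set.ncard_coe_finset, Finset.offDiag_card, Finset.card_univ, hn]
    have : (2 ^ k + 1) * (2 ^ k + 1) = (2 ^ k + 1) * 2 ^ k + (2 ^ k + 1) := by ring
    omega
  have h3 := sylow_orbit_dvd R (x₀, y) k (by rw [hcard]; exact Dvd.intro_left _ rfl)
  have h4 : orbit (R : Subgroup G) y = Prod.snd '' orbit (R : Subgroup G) (x₀, y) := by
    ext v
    constructor
    · rintro ⟨r, rfl⟩
      exact ⟨(r • x₀, r • y), ⟨r, rfl⟩, rfl⟩
    · rintro ⟨_, ⟨r, rfl⟩, rfl⟩
      exact ⟨r, rfl⟩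
  have h5 : (orbit (R : Subgroup G) y).ncard = (orbit (R : Subgroup G) (x₀, y)).ncard := by
    rw [h4]
    apply Set.InjOn.ncard_image
    rintro _ ⟨r, rfl⟩ _ ⟨s, rfl⟩ h
    have h1 : r • x₀ = x₀ := hx₀ r r.2
    have h2 : s • x₀ = x₀ := hx₀ s s.2
    exact Prod.ext (h1.trans h2.symm) h
  rw [← h5] at h3
  have h6 : orbit (R : Subgroup G) y ⊆ {x₀}ᶜ := by
    rintro _ ⟨r, rfl⟩ h
    have h1 : r • x₀ = x₀ := hx₀ r r.2
    have h' : r • y = r • x₀ := by rw [h1]; exact h
    exact hy (MulAction.injective r h')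
  have h7 : ({x₀}ᶜ : Set α).ncard = 2 ^ k := by
    rw [Set.ncard_compl, Set.ncard_singleton, Nat.card_eq_fintype_card, hn]; simp
  have h8 : 0 < (orbit (R : Subgroup G) y).ncard :=
    (Set.ncard_pos (Set.toFinite _)).2 ⟨y, mem_orbit_self y⟩
  have h9 : orbit (R : Subgroup G) y = {x₀}ᶜ :=
    Set.eq_of_subset_of_ncard_le h6 (by rw [h7]; exact Nat.le_of_dvd h8 h3) (Set.toFinite _)
  have : w ∈ orbit (R : Subgroup G) y := by rw [h9]; exact hw
  obtain ⟨r, hr⟩ := this
  exact ⟨r, r.2, hr⟩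

theorem prim_of_not_fix {G : Type*} [Group G] [MulAction G α] (R M : Subgroup G) (hRM : R ≤ M)
    (x₀ : α) (hx₀ : ∀ r ∈ R, r • x₀ = x₀)
    (htr : ∀ y w : α, y ≠ x₀ → w ≠ x₀ → ∃ r ∈ R, r • y = w)
    (hM : ∃ m ∈ M, m • x₀ ≠ x₀) : IsPreprimitive M α := by
  obtain ⟨m₀, hm₀, hm₀x⟩ := hM
  have h1 : ∀ a : α, ∃ m ∈ M, m • a = x₀ := by
    intro a
    by_cases ha : a = x₀
    · exact ⟨1, M.one_mem, by simp [ha]⟩
    · obtain ⟨r, hr, hra⟩ := htr _ _ hm₀x ha
      refine ⟨(r * m₀)⁻¹, M.inv_mem (M.mul_mem (hRM hr) hm₀), ?_⟩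
      rw [inv_smul_eq_iff, mul_smul, hra]
  have h2 : IsMultiplyPretransitive M α 2 := by
    rw [is_two_pretransitive_iff]
    intro a b c d hab hcd
    obtain ⟨m₁, hm₁, h₁⟩ := h1 a
    obtain ⟨m₂, hm₂, h₂⟩ := h1 c
    have hb : m₁ • b ≠ x₀ := by
      rw [← h₁]; intro h; exact hab (MulAction.injective m₁ h).symm
    have hd : m₂ • d ≠ x₀ := by
      rw [← h₂]; intro h; exact hcd (MulAction.injective m₂ h).symm
    obtain ⟨r, hr, hrb⟩ := htr _ _ hb hd
    refine ⟨⟨m₂⁻¹ * r * m₁, M.mul_mem (M.mul_mem (M.inv_mem hm₂) (hRM hr)) hm₁⟩, ?_, ?_⟩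
    · show (m₂⁻¹ * r * m₁) • a = c
      rw [mul_smul, mul_smul, h₁, hx₀ r hr, inv_smul_eq_iff, h₂]
    · show (m₂⁻¹ * r * m₁) • b = d
      rw [mul_smul, mul_smul, hrb, inv_smul_smul]
  exact isPreprimitive_of_is_two_pretransitive h2



theorem exists_not_mem_list (l : List α) (h : l.length < Fintype.card α) : ∃ x, x ∉ l := by
  by_contra hcon
  push Not at hcon
  have h1 : (Finset.univ : Finset α) ⊆ l.toFinset := fun x _ => List.mem_toFinset.2 (hcon x)
  have h2 := Finset.card_le_card h1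
  have h3 := List.toFinset_card_le l
  rw [Finset.card_univ] at h2
  omega

omit [Fintype α] in
theorem threeCycle_of {c d e f f' : α} (b : Perm α) (hcomm : Commute (swap c d) (swap e f))
    (hbc : b c = c) (hbd : b d = d) (hbe : b e = e) (hbf : b f = f') (hef : e ≠ f) (hef' : e ≠ f')
    (hff' : f ≠ f') :
    ∀ [Fintype α], IsThreeCycle ((swap c d * swap e f) * (b * (swap c d * swap e f) * b⁻¹)) := by
  intro _
  have h1 : b * (swap c d * swap e f) * b⁻¹ = swap c d * swap e f' := by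
    have : b * (swap c d * swap e f) * b⁻¹ = (b * swap c d * b⁻¹) * (b * swap e f * b⁻¹) := by
      group
    rw [this, ← swap_apply_apply, ← swap_apply_apply, hbc, hbd, hbe, hbf]
  rw [h1]
  have h2 : swap c d * swap e f * (swap c d * swap e f') = swap e f * swap e f' := by
    rw [hcomm.eq, mul_assoc, ← mul_assoc (swap c d), swap_mul_self, one_mul]
  rw [h2]
  exact isThreeCycle_swap_mul_swap_same hef hef' hff'

theorem threeCycle_mem (M : Subgroup (Perm α)) {c d e f f' j j' : α}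
    (ha : swap c d * swap e f ∈ M) (hb : swap f f' * swap j j' ∈ M)
    (hcd : c ≠ d) (hce : c ≠ e) (hcf : c ≠ f) (hde : d ≠ e) (hdf : d ≠ f) (hef : e ≠ f)
    (hf'c : c ≠ f') (hf'd : d ≠ f') (hf'e : e ≠ f') (hf'f : f ≠ f')
    (hjc : c ≠ j) (hjd : d ≠ j) (hje : e ≠ j) (hjf : f ≠ j)
    (hj'c : c ≠ j') (hj'd : d ≠ j') (hj'e : e ≠ j') (hj'f : f ≠ j') :
    ∃ g ∈ M, IsThreeCycle g := by
  refine ⟨_, M.mul_mem ha (M.mul_mem (M.mul_mem hb ha) (M.inv_mem hb)),
    threeCycle_of (swap f f' * swap j j') ?_ ?_ ?_ ?_ (f' := f') ?_ hef hf'e hf'f⟩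
  · apply Disjoint.commute
    apply disjoint_swap_swap
    simp [*]
  · simp [swap_apply_of_ne_of_ne, *]
  · simp [swap_apply_of_ne_of_ne, *]
  · simp [swap_apply_of_ne_of_ne, *]
  · simp [swap_apply_of_ne_of_ne, *]

theorem exists_threeCycle (P : Sylow 2 (Perm α)) (x₀ : α) (hx₀ : ∀ r ∈ P, r x₀ = x₀)
    (htr : ∀ y w, y ≠ x₀ → w ≠ x₀ → ∃ r ∈ P, r y = w) (h9 : 9 ≤ Fintype.card α)
    (M : Subgroup (Perm α))
    (hM : ∀ a b c d : α, a ≠ b → c ≠ d → swap a b ∈ P → swap c d ∈ P →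
      swap a b * swap c d ∈ M)
    (hmove : ∀ p : α, ∃ m ∈ M, m p = x₀) : ∃ g ∈ M, IsThreeCycle g := by
  have partner : ∀ y, y ≠ x₀ → ∃ y', y' ≠ y ∧ y' ≠ x₀ ∧ swap y y' ∈ P := by
    intro y hy
    obtain ⟨a, b, hab, hs⟩ := exists_swap_mem P (by omega)
    have ha : a ≠ x₀ := by
      rintro rfl
      have := hx₀ _ hs
      rw [swap_apply_left] at this
      exact hab this.symm
    have hb : b ≠ x₀ := by
      rintro rfl
      have := hx₀ _ hs
      rw [swap_apply_right] at this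
      exact hab this
    obtain ⟨r, hr, hra⟩ := htr a y ha hy
    refine ⟨r b, ?_, ?_, ?_⟩
    · rw [← hra]; intro h; exact hab (r.injective h).symm
    · intro h
      rw [← hx₀ r hr] at h
      exact hb (r.injective h)
    · rw [← hra, swap_apply_apply]
      exact P.mul_mem (P.mul_mem hr hs) (P.inv_mem hr)
  choose! σ hσ1 hσ2 hσ3 using partner
  have U : ∀ u v v' : α, u ≠ v → u ≠ v' → swap u v ∈ P → swap u v' ∈ P → v = v' := by
    intro u v v' h1 h2 h3 h4
    by_contra h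
    exact swap_mem_absurd P h1 h2 h h3 h4
  obtain ⟨p, hp⟩ := exists_not_mem_list [x₀] (by simp; omega)
  simp only [List.mem_cons, List.not_mem_nil, or_false] at hp
  obtain ⟨j, hj⟩ := exists_not_mem_list [x₀, p, σ p] (by simp; omega)
  simp only [List.mem_cons, List.not_mem_nil, or_false, not_or] at hj
  obtain ⟨hj0, hjp, hjp'⟩ := hj
  have hj'p : σ j ≠ p := by
    intro h
    have h1 := hσ3 j hj0
    rw [h, swap_comm] at h1
    exact hjp' (U p j (σ p) (Ne.symm hjp) (hσ1 p hp).symm h1 (hσ3 p hp))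
  have hj'p' : σ j ≠ σ p := by
    intro h
    have h1 := hσ3 j hj0
    have h2 := hσ3 p hp
    rw [h, swap_comm] at h1
    rw [swap_comm] at h2
    exact hjp (U (σ p) j p (Ne.symm hjp') (hσ1 p hp) h1 h2)
  obtain ⟨m, hm, hmp⟩ := hmove p
  have ha : swap x₀ (m (σ p)) * swap (m j) (m (σ j)) ∈ M := by
    have h1 := M.mul_mem (M.mul_mem hm (hM _ _ _ _ (hσ1 p hp).symm (hσ1 j hj0).symm (hσ3 p hp) (hσ3 j hj0))) (M.inv_mem hm)
    have h2 : m * (swap p (σ p) * swap j (σ j)) * m⁻¹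
        = (m * swap p (σ p) * m⁻¹) * (m * swap j (σ j) * m⁻¹) := by group
    rw [h2, ← swap_apply_apply, ← swap_apply_apply, hmp] at h1
    exact h1
  set y := m (σ p) with hy
  set w := m j with hw
  set z := m (σ j) with hz
  have hy0 : y ≠ x₀ := by rw [← hmp]; exact fun h => hσ1 p hp (m.injective h)
  have hw0 : w ≠ x₀ := by rw [← hmp]; exact fun h => hjp (m.injective h)
  have hz0 : z ≠ x₀ := by rw [← hmp]; exact fun h => hj'p (m.injective h)
  have hyw : y ≠ w := fun h => hjp' (m.injective h).symm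
  have hyz : y ≠ z := fun h => hj'p' (m.injective h).symm
  have hwz : w ≠ z := fun h => hσ1 j hj0 (m.injective h).symm
  obtain ⟨i, hi⟩ := exists_not_mem_list [x₀, y, w, z, σ y, σ w, σ z] (by simp; omega)
  simp only [List.mem_cons, List.not_mem_nil, or_false, not_or] at hi
  obtain ⟨hi0, hiy, hiw, hiz, hiy', hiw', hiz'⟩ := hi
  have hi' : ∀ v, v ≠ x₀ → i ≠ v → i ≠ σ v → σ i ≠ v := by
    intro v hv h1 h2 h
    have h3 := hσ3 i hi0
    rw [h, swap_comm] at h3
    exact h2 (U v i (σ v) (Ne.symm h1) (hσ1 v hv).symm h3 (hσ3 v hv))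
  have hi'y := hi' y hy0 hiy hiy'
  have hi'w := hi' w hw0 hiw hiw'
  have hi'z := hi' z hz0 hiz hiz'
  by_cases h1 : σ y = w
  · -- use z
    have hzy : σ z ≠ y := by
      intro h
      have h3 := hσ3 z hz0
      have h4 := hσ3 y hy0
      rw [h, swap_comm] at h3
      rw [h1] at h4
      exact hwz (U y z w hyz hyw h3 h4).symm
    have hzw : σ z ≠ w := by
      intro h
      have h3 := hσ3 z hz0
      have h4 := hσ3 y hy0
      rw [h, swap_comm] at h3
      rw [h1, swap_comm] at h4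
      exact hyz (U w z y hwz (Ne.symm hyw) h3 h4).symm
    exact threeCycle_mem M ha (hM _ _ _ _ (hσ1 z hz0).symm (hσ1 i hi0).symm (hσ3 z hz0) (hσ3 i hi0)) (Ne.symm hy0) (Ne.symm hw0)
      (Ne.symm hz0) hyw hyz hwz (hσ2 z hz0).symm (Ne.symm hzy) (Ne.symm hzw) (hσ1 z hz0).symm
      (Ne.symm hi0) (Ne.symm hiy) (Ne.symm hiw) (Ne.symm hiz) (hσ2 i hi0).symm (Ne.symm hi'y)
      (Ne.symm hi'w) (Ne.symm hi'z)
  · by_cases h2 : σ y = z
    · -- use w
      have hwy : σ w ≠ y := by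
        intro h
        have h3 := hσ3 w hw0
        have h4 := hσ3 y hy0
        rw [h, swap_comm] at h3
        rw [h2] at h4
        exact hwz (U y w z hyw hyz h3 h4)
      have hwz' : σ w ≠ z := by
        intro h
        have h3 := hσ3 w hw0
        have h4 := hσ3 y hy0
        rw [h, swap_comm] at h3
        rw [h2, swap_comm] at h4
        exact hyw (U z w y (Ne.symm hwz) (Ne.symm hyz) h3 h4).symm
      rw [swap_comm w z] at ha
      exact threeCycle_mem M ha (hM _ _ _ _ (hσ1 w hw0).symm (hσ1 i hi0).symm (hσ3 w hw0) (hσ3 i hi0)) (Ne.symm hy0) (Ne.symm hz0)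
        (Ne.symm hw0) hyz hyw (Ne.symm hwz) (hσ2 w hw0).symm (Ne.symm hwy) (Ne.symm hwz')
        (hσ1 w hw0).symm
        (Ne.symm hi0) (Ne.symm hiy) (Ne.symm hiz) (Ne.symm hiw) (hσ2 i hi0).symm (Ne.symm hi'y)
        (Ne.symm hi'z) (Ne.symm hi'w)
    · -- use y
      have hcomm : swap x₀ y * swap w z = swap w z * swap x₀ y := by
        apply Disjoint.commute
        apply disjoint_swap_swap
        simp [hy0.symm, hw0.symm, hz0.symm, hyw, hyz, hwz]
      rw [hcomm] at ha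
      exact threeCycle_mem M ha (hM _ _ _ _ (hσ1 y hy0).symm (hσ1 i hi0).symm (hσ3 y hy0) (hσ3 i hi0)) hwz hw0 (Ne.symm hyw) hz0
        (Ne.symm hyz) (Ne.symm hy0) (Ne.symm h1) (Ne.symm h2) (hσ2 y hy0).symm (hσ1 y hy0).symm
        (Ne.symm hiw) (Ne.symm hiz) (Ne.symm hi0) (Ne.symm hiy) (Ne.symm hi'w) (Ne.symm hi'z)
        (hσ2 i hi0).symm (Ne.symm hi'y)



theorem factorial_two_mul (m : ℕ) : ∃ k, Odd k ∧ (2 * m)! = 2 ^ m * m ! * k := by
  induction m with
  | zero => exact ⟨1, odd_one, by simp⟩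
  | succ m ih =>
    obtain ⟨k, hk, h⟩ := ih
    refine ⟨(2 * m + 1) * k, Odd.mul ⟨m, rfl⟩ hk, ?_⟩
    have : 2 * (m + 1) = 2 * m + 1 + 1 := by ring
    rw [this, Nat.factorial_succ, Nat.factorial_succ, h, Nat.factorial_succ]
    ring

theorem exists_fpf_commute (P : Sylow 2 (Perm α)) (m : ℕ) (hm0 : 0 < m)
    (hm : Fintype.card α = 2 * m) :
    ∃ z : Perm α, (∀ x, z (z x) = x) ∧ (∀ x, z x ≠ x) ∧ ∀ r ∈ P, r * z = z * r := by
  obtain ⟨z₀, hz₀⟩ := (exists_with_cycleType_iff α (m := Multiset.replicate m 2)).2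
    ⟨by simp [hm, mul_comm], fun a ha => (Multiset.eq_of_mem_replicate ha).ge⟩
  have hsq : z₀ ^ 2 = 1 := by
    rw [← orderOf_dvd_iff_pow_eq_one, ← lcm_cycleType, hz₀, Multiset.lcm_dvd]
    intro b hb
    rw [Multiset.eq_of_mem_replicate hb]
  have hsupp : z₀.support = Finset.univ := by
    apply Finset.eq_univ_of_card
    rw [← sum_cycleType, hz₀, hm]
    simp [mul_comm]
  have hcard : Nat.card (Subgroup.centralizer {z₀}) = 2 ^ m * m ! := by
    rw [nat_card_centralizer, hz₀, Multiset.sum_replicate, Multiset.prod_replicate, hm,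
      Multiset.toFinset_replicate, if_neg hm0.ne']
    simp [mul_comm]
  obtain ⟨k, hk, hfac⟩ := factorial_two_mul m
  have hidx : (Subgroup.centralizer {z₀}).index = k := by
    have h1 := (Subgroup.centralizer {z₀}).card_mul_index
    rw [hcard, Nat.card_eq_fintype_card, Fintype.card_perm, hm, hfac] at h1
    exact Nat.eq_of_mul_eq_mul_left (by positivity) h1
  have hnd : ¬ 2 ∣ Nat.card (Perm α ⧸ Subgroup.centralizer {z₀}) := by
    have : Nat.card (Perm α ⧸ Subgroup.centralizer {z₀}) = k := hidx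
    rw [this]
    exact hk.not_two_dvd_nat
  obtain ⟨q, hq⟩ := P.2.nonempty_fixed_point_of_prime_not_dvd_card _ hnd
  obtain ⟨g, rfl⟩ := QuotientGroup.mk_surjective q
  refine ⟨g * z₀ * g⁻¹, ?_, ?_, ?_⟩
  · intro x
    have : (g * z₀ * g⁻¹) * (g * z₀ * g⁻¹) = 1 := by
      have : (g * z₀ * g⁻¹) * (g * z₀ * g⁻¹) = g * z₀ ^ 2 * g⁻¹ := by rw [pow_two]; group
      rw [this, hsq]; group
    exact congrFun (congrArg DFunLike.coe this) x
  · intro x hx
    have h1 : g⁻¹ x ∈ z₀.support := by rw [hsupp]; exact Finset.mem_univ _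
    rw [mem_support] at h1
    apply h1
    simp only [Perm.coe_mul, Function.comp_apply] at hx
    rw [Perm.eq_inv_iff_eq, hx]
  · intro r hr
    have h1 := hq ⟨r, hr⟩
    have h2 : ((r * g : Perm α) : Perm α ⧸ Subgroup.centralizer {z₀}) = (g : Perm α ⧸ _) := h1
    rw [QuotientGroup.eq, Subgroup.mem_centralizer_singleton_iff] at h2
    have h3 : r⁻¹ * (g * z₀ * g⁻¹) * r = g * z₀ * g⁻¹ := by
      have e1 : r⁻¹ * (g * z₀ * g⁻¹) * r = g * (((r * g)⁻¹ * g) * z₀ * ((r * g)⁻¹ * g)⁻¹) * g⁻¹ := by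
        group
      rw [e1, h2]; group
    calc r * (g * z₀ * g⁻¹) = r * (r⁻¹ * (g * z₀ * g⁻¹) * r) := by rw [h3]
      _ = g * z₀ * g⁻¹ * r := by group



theorem coatom_index' {P : Type*} [Group P] [Finite P] {p : ℕ} [hp : Fact p.Prime]
    (hP : IsPGroup p P) {M : Subgroup P} (hM : IsCoatom M) : M.index = p := by
  obtain ⟨n, hn⟩ := IsPGroup.iff_card.mp (hP.to_subgroup M)
  obtain ⟨m, hm⟩ := IsPGroup.iff_card.mp hP
  have hlt : Nat.card M < Nat.card P := by
    rcases lt_or_eq_of_le (Subgroup.card_le_card_group M) with h | h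
    · exact h
    · exact absurd ((Subgroup.card_eq_iff_eq_top M).mp h) hM.1
  rw [hn, hm] at hlt
  have hnm : n < m := (Nat.pow_lt_pow_iff_right hp.out.one_lt).mp hlt
  have hdvd : p ^ (n + 1) ∣ Nat.card P := by
    rw [hm]; exact pow_dvd_pow p hnm
  obtain ⟨K, hK, hMK⟩ := Sylow.exists_subgroup_card_pow_succ hdvd hn
  have hne : M ≠ K := by
    intro h
    rw [← h, hn] at hK
    have := Nat.pow_right_injective hp.out.two_le hK
    omega
  have hKtop : K = ⊤ := hM.2 K (lt_of_le_of_ne hMK hne)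
  have hcard : Nat.card P = p ^ (n + 1) := by
    rw [← hK, hKtop, Subgroup.card_top]
  have h1 := M.card_mul_index
  rw [hn, hcard, pow_succ] at h1
  exact Nat.eq_of_mul_eq_mul_left (pow_pos hp.out.pos n) h1

theorem exists_half_block {R : Type*} [Group R] [Finite R] [MulAction R α] (hR : IsPGroup 2 R)
    [IsPretransitive R α] (h2 : 2 ≤ Fintype.card α) :
    ∃ B : Set α, 2 * B.ncard = Fintype.card α ∧ ∀ r : R, r • B = B ∨ r • B = Bᶜ := by
  obtain ⟨x⟩ : Nonempty α := Fintype.card_pos_iff.1 (by omega)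
  have hne : stabilizer R x ≠ ⊤ := by
    intro h
    have := index_stabilizer_of_transitive R x
    rw [h, Subgroup.index_top, Nat.card_eq_fintype_card] at this
    omega
  obtain ⟨R₀, hR₀, hle⟩ := (eq_top_or_exists_le_coatom (stabilizer R x)).resolve_left hne
  have hidx : R₀.index = 2 := coatom_index' hR hR₀
  have hB : IsBlock R (orbit R₀ x) := IsBlock.of_orbit hle
  have hst : stabilizer R (orbit R₀ x) = R₀ := stabilizer_orbit_eq hle
  have hcard := hB.ncard_block_mul_ncard_orbit_eq ⟨x, mem_orbit_self x⟩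
  rw [← index_stabilizer R (orbit R₀ x), hst, hidx, Nat.card_eq_fintype_card] at hcard
  refine ⟨orbit R₀ x, by omega, fun r => ?_⟩
  rcases isBlock_iff_smul_eq_or_disjoint.1 hB r with h | h
  · left; exact h
  · right
    apply Set.eq_of_subset_of_ncard_le h.subset_compl_right _ (Set.toFinite _)
    rw [Set.ncard_smul_set, Set.ncard_compl, Nat.card_eq_fintype_card]
    omega



theorem half_perm {s : Set α} (hα : s.ncard ≤ sᶜ.ncard)
    (G : Subgroup (Perm α)) (hG : stabilizer (Perm α) s < G) (hnb : ¬ IsBlock G sᶜ) : G = ⊤ := by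
  have hG' : stabilizer (Perm α) sᶜ < G := by rwa [stabilizer_compl]
  obtain ⟨g, hg_swap, hg⟩ := has_swap_mem_of_lt_stabilizer s G hG
  apply subgroup_eq_top_of_isPreprimitive_of_isSwap_mem _ g hg_swap hg
  have := G.isPretransitive_of_stabilizer_lt hG Equiv.Perm.exists_mem_stabilizer_smul_eq
  apply IsPreprimitive.mk
  intro B hB
  unfold IsTrivialBlock
  rw [or_iff_not_imp_left]
  intro hB'
  suffices sᶜ ⊆ B by
    apply hB.eq_univ_of_card_lt
    have hne : sᶜ ≠ B := fun h => hnb (h ▸ hB)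
    have : sᶜ.ncard < B.ncard := Set.ncard_lt_ncard (this.ssubset_of_ne hne) (Set.toFinite _)
    rw [← Set.ncard_add_ncard_compl s]
    lia
  have hB_not_le_sc (B : Set α) (hB : IsBlock G B) (hBsc : B ⊆ sᶜ) :
      B.Subsingleton :=
    hB.subsingleton_of_ssubset_of_stabilizer_Perm_le
      (hBsc.ssubset_of_ne (fun h => hnb (h ▸ hB))) hG'.le
  have hB_not_le_s (B : Set α) (hB : IsBlock G B) (hBs : B ⊆ s) : B.Subsingleton :=
    have := isPreprimitive_stabilizer_subgroup hG.le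
    hB.subsingleton_of_stabilizer_lt_of_subset hB_not_le_sc hG hBs
  have _ := Equiv.Perm.isMultiplyPretransitive α (s.ncard + 1)
  apply MulAction.IsBlock.compl_subset_of_stabilizer_le_of_not_subset_of_not_subset_compl hG.le <;>
    grind

theorem half_alt {s : Set α} (h0 : s.Nontrivial) (hs : s.ncard ≤ (sᶜ : Set α).ncard)
    (G : Subgroup (alternatingGroup α)) (hG : stabilizer (alternatingGroup α) s < G)
    (hnb : ¬ IsBlock G sᶜ) (hα : 4 < Nat.card α) : G = ⊤ := by
  have := ncard_add_ncard_compl s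
  have h1 : sᶜ.Nontrivial := by
    rw [← one_lt_ncard_iff_nontrivial]
    rw [← one_lt_ncard_iff_nontrivial] at h0
    omega
  suffices IsPreprimitive G α from alternatingGroup.subgroup_eq_top_of_isPreprimitive hα G hG.le
  have := G.isPretransitive_of_stabilizer_lt hG
    (alternatingGroup.exists_mem_stabilizer_smul_eq (Nat.le_of_succ_le hα))
  apply IsPreprimitive.mk
  intro B hB
  rw [IsTrivialBlock, or_iff_not_imp_left]
  intro hB'
  suffices sᶜ ⊆ B by
    apply hB.eq_univ_of_card_lt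
    have hne : sᶜ ≠ B := fun h => hnb (h ▸ hB)
    have : sᶜ.ncard < B.ncard := Set.ncard_lt_ncard (this.ssubset_of_ne hne) (Set.toFinite _)
    grind
  have hB_not_le_sc (B : Set α) (hB : IsBlock G B) (hBsc : B ⊆ sᶜ) :
      B.Subsingleton :=
    IsBlock.subsingleton_of_ssubset_compl_of_stabilizer_alternatingGroup_le h0
      (hBsc.ssubset_of_ne (fun h => hnb (h ▸ hB)))
      hG.le hB
  have hB_not_le_s (B : Set α) (hB : IsBlock G B) (hBs : B ⊆ s) :
      B.Subsingleton :=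
    have : IsPreprimitive (stabilizer G s) s :=
      alternatingGroup.stabilizer_subgroup_isPreprimitive h1 hG.le
    hB.subsingleton_of_stabilizer_lt_of_subset hB_not_le_sc hG hBs
  suffices IsMultiplyPretransitive (↥(alternatingGroup α)) α (s.ncard + 1) by
    have : ¬ B ⊆ s := fun h ↦ hB' (hB_not_le_s B hB h)
    have : ¬ B ⊆ sᶜ := fun h ↦ hB' (hB_not_le_sc B hB h)
    apply hB.compl_subset_of_stabilizer_le_of_not_subset_of_not_subset_compl
      hG.le <;> grind
  have := alternatingGroup.isMultiplyPretransitive α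
  apply isMultiplyPretransitive_of_le (n := Nat.card α - 2) _ (Nat.sub_le _ _)
  rw [← one_lt_ncard_iff_nontrivial] at h1
  grind


end Cfsg.Agent.Lib.Helper43Syl2
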