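import Mathlib
import Cfsg.Agent.Lib.Helper43Syl2

set_option autoImplicit false
set_option linter.unusedSectionVars false

namespace Cfsg.Agent.Lib.Helper43Syl2B

open Cfsg.Agent.Lib.Helper43Syl2

open MulAction Equiv Equiv.Perm Set
open scoped Pointwise Nat

variable {α : Type*} [Fintype α] [DecidableEq α]

/-- The properties of `Perm α` and `alternatingGroup α` used in the argument. -/
structure Big (G : Type*) [Group G] [MulAction G α] : Prop where
  two : ∀ a b c d : α, a ≠ b → c ≠ d → ∃ g : G, g • a = c ∧ g • b = d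
  real : ∀ π : Perm α, π ∈ alternatingGroup α → ∃ g : G, ∀ x, g • x = π x
  coatom : ∀ s : Set α, s.Nonempty → sᶜ.Nonempty → Nat.card α ≠ 2 * s.ncard →
    IsCoatom (stabilizer G s)
  half : ∀ (s : Set α) (K : Subgroup G), s.Nontrivial → s.ncard ≤ sᶜ.ncard →
    stabilizer G s < K → ¬ IsBlock K sᶜ → K = ⊤
  cz : ∀ (R : Sylow 2 G) (m : ℕ), 0 < m → Fintype.card α = 2 * m →
    ∃ z : Perm α, (∀ x, z (z x) = x) ∧ (∀ x, z x ≠ x) ∧ ∀ g ∈ R, ∀ x, g • z x = z (g • x)
  primtop : ∀ (R : Sylow 2 G) (k : ℕ), 2 ≤ k → Fintype.card α = 2 ^ k + 1 → ∀ x₀ : α,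
    (∀ r ∈ R, r • x₀ = x₀) → (∀ y w : α, y ≠ x₀ → w ≠ x₀ → ∃ r ∈ R, r • y = w) →
    ∀ K : Subgroup G, (R : Subgroup G) ≤ K → IsPreprimitive K α → K = ⊤

/-- the centralizer of the permutation `z` in a group acting on `α`. -/
def cent (G : Type*) [Group G] [MulAction G α] (z : Perm α) : Subgroup G where
  carrier := {g | ∀ x, g • z x = z (g • x)}
  one_mem' := by intro x; simp
  mul_mem' := by
    intro a b ha hb x
    rw [mul_smul, mul_smul, hb, ha]
  inv_mem' := by
    intro a ha x
    rw [inv_smul_eq_iff, ha, smul_inv_smul]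

/-- the stabilizer of the partition `{B, Bᶜ}`. -/
def stab2 (G : Type*) [Group G] [MulAction G α] (B : Set α) : Subgroup G where
  carrier := {g | g • B = B ∨ g • B = Bᶜ}
  one_mem' := by left; simp
  mul_mem' := by
    intro a b ha hb
    simp only [Set.mem_ofPred_eq, mul_smul] at *
    rcases hb with hb | hb <;> rcases ha with ha | ha
    · left; rw [hb, ha]
    · right; rw [hb, ha]
    · right; rw [hb, Set.smul_set_compl, ha]
    · left; rw [hb, Set.smul_set_compl, ha, compl_compl]
  inv_mem' := by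
    intro a ha
    simp only [Set.mem_ofPred_eq] at *
    rcases ha with ha | ha
    · left; rw [inv_smul_eq_iff, ha]
    · right; rw [inv_smul_eq_iff, Set.smul_set_compl, ha, compl_compl]

theorem exists_cent_elt {G : Type*} [Group G] [MulAction G α]
    (real : ∀ π : Perm α, π ∈ alternatingGroup α → ∃ g : G, ∀ x, g • x = π x)
    (z : Perm α) (hz1 : ∀ x, z (z x) = x) (hz2 : ∀ x, z x ≠ x) (x y : α) (hxy : x ≠ y)
    (hy : y ≠ z x) :
    ∃ g ∈ cent G z, g • x = y ∧ g • y = x ∧ ∀ u, u ≠ x → u ≠ y → u ≠ z x → u ≠ z y → g • u = u := by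
  have hzxy : z x ≠ z y := fun h => hxy (z.injective h)
  have hxzy : x ≠ z y := by
    intro h
    apply hy
    rw [h, hz1]
  obtain ⟨g, hg⟩ := real (swap x y * swap (z x) (z y)) (by
    rw [mem_alternatingGroup, Perm.sign_mul, sign_swap hxy, sign_swap hzxy]; simp)
  have hcomm : swap x y * swap (z x) (z y) = swap (z x) (z y) * swap x y := by
    apply Disjoint.commute
    apply disjoint_swap_swap
    simp [hxy, (hz2 x).symm, hxzy, hy, (hz2 y).symm, hzxy]
  have hconj : z * (swap x y * swap (z x) (z y)) = (swap x y * swap (z x) (z y)) * z := by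
    have h1 : z * (swap x y * swap (z x) (z y)) * z⁻¹
        = (z * swap x y * z⁻¹) * (z * swap (z x) (z y) * z⁻¹) := by group
    rw [← swap_apply_apply, ← swap_apply_apply, hz1, hz1, ← hcomm] at h1
    exact mul_inv_eq_iff_eq_mul.1 h1
  refine ⟨g, ?_, ?_, ?_, ?_⟩
  · intro u
    rw [hg, hg]
    exact (congrFun (congrArg DFunLike.coe hconj) u).symm
  · rw [hg]
    simp [swap_apply_of_ne_of_ne (hz2 x).symm hxzy]
  · rw [hg]
    simp [swap_apply_of_ne_of_ne hy (hz2 y).symm]
  · intro u h1 h2 h3 h4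
    rw [hg]
    simp [swap_apply_of_ne_of_ne h1 h2, swap_apply_of_ne_of_ne h3 h4]

theorem cent_ne_top {G : Type*} [Group G] [MulAction G α]
    (real : ∀ π : Perm α, π ∈ alternatingGroup α → ∃ g : G, ∀ x, g • x = π x)
    (z : Perm α) (hz2 : ∀ x, z x ≠ x) (h4 : 4 ≤ Fintype.card α) : cent G z ≠ ⊤ := by
  intro htop
  obtain ⟨x⟩ : Nonempty α := Fintype.card_pos_iff.1 (by omega)
  obtain ⟨w, hw⟩ := exists_not_mem_list [x, z x] (by simp; omega)
  obtain ⟨w', hw'⟩ := exists_not_mem_list [x, z x, w] (by simp; omega)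
  simp only [List.mem_cons, List.not_mem_nil, or_false, not_or] at hw hw'
  obtain ⟨g, hg⟩ := real (swap (z x) w * swap (z x) w')
    (isThreeCycle_swap_mul_swap_same (Ne.symm hw.2) (Ne.symm hw'.2.1)
      (Ne.symm hw'.2.2)).mem_alternatingGroup
  have h1 : g ∈ cent G z := by rw [htop]; trivial
  have h2 := h1 x
  rw [hg, hg] at h2
  simp only [Perm.coe_mul, Function.comp_apply, swap_apply_left] at h2
  rw [swap_apply_of_ne_of_ne hw'.2.1 hw'.2.2, swap_apply_of_ne_of_ne (hz2 x).symm (Ne.symm hw'.1),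
    swap_apply_of_ne_of_ne (hz2 x).symm (Ne.symm hw.1)] at h2
  exact hw'.2.1 h2

theorem cross (z : Perm α) (h3 : 3 ≤ Fintype.card α) (s : Set α) (hs : s.Nonempty)
    (hsc : sᶜ.Nonempty) : ∃ a ∈ s, ∃ b, b ∉ s ∧ b ≠ z a := by
  obtain ⟨a, ha⟩ := hs
  obtain ⟨b, hb⟩ := hsc
  by_cases h : b = z a
  · obtain ⟨c, hc⟩ := exists_not_mem_list [a, b] (by simp; omega)
    simp only [List.mem_cons, List.not_mem_nil, or_false, not_or] at hc
    by_cases hcs : c ∈ s
    · refine ⟨c, hcs, b, hb, ?_⟩
      rw [h]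
      intro h'
      exact hc.1 (z.injective h').symm
    · exact ⟨a, ha, c, hcs, by rw [← h]; exact hc.2⟩
  · exact ⟨a, ha, b, hb, h⟩


theorem le_stab_orbit {G : Type*} [Group G] [MulAction G α] (R : Subgroup G) (x : α) :
    R ≤ stabilizer G (orbit R x) := by
  rw [le_stabilizer_iff_smul_le]
  rintro g hg _ ⟨_, ⟨r, rfl⟩, rfl⟩
  exact ⟨⟨g, hg⟩ * r, by simp [mul_smul, Subgroup.smul_def]⟩

theorem unique_of_pow {G : Type*} [Group G] [Finite G] [MulAction G α] (hG : Big (α := α) G)
    (R : Sylow 2 G) (k : ℕ) (hk : 2 ≤ k) (hn : Fintype.card α = 2 ^ k + 1) :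
    ∃! M : Subgroup G, IsCoatom M ∧ (R : Subgroup G) ≤ M := by
  have hnd : ¬ 2 ∣ Nat.card α := by
    rw [Nat.card_eq_fintype_card, hn]
    have : 2 ∣ 2 ^ k := dvd_pow_self 2 (by omega)
    omega
  obtain ⟨x₀, hx₀⟩ := R.2.nonempty_fixed_point_of_prime_not_dvd_card α hnd
  have hfix : ∀ r ∈ R, r • x₀ = x₀ := fun r hr => hx₀ ⟨r, hr⟩
  have htr := trans_rest hG.two R k hn x₀ hfix
  have h4 : 4 ≤ 2 ^ k := by
    calc 4 = 2 ^ 2 := by norm_num
      _ ≤ 2 ^ k := Nat.pow_le_pow_right (by norm_num) hk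
  have hco : IsCoatom (stabilizer G x₀) := by
    rw [← stabilizer_singleton]
    apply hG.coatom _ (Set.singleton_nonempty _)
    · rw [← Set.ncard_pos (Set.toFinite _), Set.ncard_compl, Set.ncard_singleton,
        Nat.card_eq_fintype_card, hn]
      omega
    · rw [Set.ncard_singleton, Nat.card_eq_fintype_card, hn]
      omega
  refine ⟨stabilizer G x₀, ⟨hco, fun r hr => hfix r hr⟩, ?_⟩
  rintro M ⟨hM, hRM⟩
  by_cases h : M ≤ stabilizer G x₀
  · rcases h.lt_or_eq with h | h
    · exact absurd (hM.2 _ h) hco.1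
    · exact h
  · exfalso
    have : ∃ m ∈ M, m • x₀ ≠ x₀ := by
      by_contra hcon
      push Not at hcon
      exact h (fun m hm => hcon m hm)
    exact hM.1 (hG.primtop R k hk hn x₀ hfix htr M hRM
      (prim_of_not_fix (R : Subgroup G) M hRM x₀ hfix htr this))

theorem not_unique_odd {G : Type*} [Group G] [Finite G] [MulAction G α] (hG : Big (α := α) G)
    (R : Sylow 2 G) (h5 : 5 ≤ Fintype.card α) (hodd : ¬ 2 ∣ Fintype.card α)
    (hk : ¬ ∃ k : ℕ, 2 ≤ k ∧ Fintype.card α = 2 ^ k + 1)
    (M : Subgroup G) (huniq : ∀ M' : Subgroup G, IsCoatom M' → (R : Subgroup G) ≤ M' → M' = M) :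
    False := by
  have hnd : ¬ 2 ∣ Nat.card α := by rwa [Nat.card_eq_fintype_card]
  obtain ⟨x₀, hx₀⟩ := R.2.nonempty_fixed_point_of_prime_not_dvd_card α hnd
  have hfix : ∀ r ∈ R, r • x₀ = x₀ := fun r hr => hx₀ ⟨r, hr⟩
  obtain ⟨y, hy⟩ := exists_not_mem_list [x₀] (by simp; omega)
  simp only [List.mem_cons, List.not_mem_nil, or_false] at hy
  have hx₀O : x₀ ∉ orbit (R : Subgroup G) y := by
    rintro ⟨r, hr⟩
    have h1 : r • x₀ = x₀ := hfix r r.2
    rw [← h1] at hr
    exact hy (MulAction.injective r hr)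
  obtain ⟨j, hj⟩ := R.2.card_orbit y
  rw [Nat.card_coe_set_eq] at hj
  have hex : ∃ w, w ≠ x₀ ∧ w ∉ orbit (R : Subgroup G) y := by
    by_contra hcon
    push Not at hcon
    have h1 : orbit (R : Subgroup G) y = {x₀}ᶜ := by
      ext w
      constructor
      · intro hw h
        rw [Set.mem_singleton_iff] at h
        exact hx₀O (h ▸ hw)
      · intro hw
        exact hcon w hw
    have h2 : Fintype.card α = 2 ^ j + 1 := by
      rw [← hj, h1, Set.ncard_compl, Set.ncard_singleton, Nat.card_eq_fintype_card]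
      omega
    apply hk
    refine ⟨j, ?_, h2⟩
    by_contra hj2
    have : j = 0 ∨ j = 1 := by omega
    rcases this with rfl | rfl <;> simp at h2 <;> omega
  obtain ⟨w, hw0, hwO⟩ := hex
  have hc1 : IsCoatom (stabilizer G ({x₀} : Set α)) := by
    apply hG.coatom _ (Set.singleton_nonempty _) ⟨y, hy⟩
    rw [Nat.card_eq_fintype_card]
    intro h
    exact hodd ⟨_, h⟩
  have hc2 : IsCoatom (stabilizer G (orbit (R : Subgroup G) y)) := by
    apply hG.coatom _ ⟨y, mem_orbit_self y⟩ ⟨x₀, hx₀O⟩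
    rw [Nat.card_eq_fintype_card]
    intro h
    exact hodd ⟨_, h⟩
  have e1 := huniq _ hc1 (by
    rw [stabilizer_singleton]
    exact fun r hr => hfix r hr)
  have e2 := huniq _ hc2 (le_stab_orbit _ y)
  obtain ⟨g, hg1, hg2⟩ := hG.two x₀ y x₀ w (Ne.symm hy) (Ne.symm hw0)
  have hgm : g ∈ stabilizer G (orbit (R : Subgroup G) y) := by
    rw [e2, ← e1, stabilizer_singleton]
    exact hg1
  apply hwO
  rw [← hg2, ← hgm]
  exact Set.smul_mem_smul_set (mem_orbit_self y)


theorem not_unique_even {G : Type*} [Group G] [Finite G] [MulAction G α] (hG : Big (α := α) G)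
    (R : Sylow 2 G) (m : ℕ) (hm4 : 4 ≤ m) (hm : Fintype.card α = 2 * m)
    (M : Subgroup G) (hM : IsCoatom M)
    (huniq : ∀ M' : Subgroup G, IsCoatom M' → (R : Subgroup G) ≤ M' → M' = M) :
    False := by
  have U : ∀ H : Subgroup G, (R : Subgroup G) ≤ H → H ≠ ⊤ → H ≤ M := by
    intro H hRH hH
    obtain ⟨M', hM', hle⟩ := (eq_top_or_exists_le_coatom H).resolve_left hH
    rw [← huniq M' hM' (hRH.trans hle)]
    exact hle
  obtain ⟨z, hz1, hz2, hzR⟩ := hG.cz R m (by omega) hm
  have hcM : cent G z ≤ M := U _ (fun g hg => hzR g hg) (cent_ne_top hG.real z hz2 (by omega))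
  obtain ⟨x⟩ : Nonempty α := Fintype.card_pos_iff.1 (by omega)
  -- the half block
  have key : ∀ B : Set α, 2 * B.ncard = Fintype.card α → (∀ r ∈ R, r • B = B ∨ r • B = Bᶜ) →
      False := by
    intro B hB hRB
    have hBc : Bᶜ.ncard = m := by
      rw [Set.ncard_compl, Nat.card_eq_fintype_card]; omega
    have hBm : B.ncard = m := by omega
    have hprim : IsPreprimitive G α := by
      apply isPreprimitive_of_is_two_pretransitive
      rw [is_two_pretransitive_iff]
      intro a b c d hab hcd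
      exact hG.two a b c d hab hcd
    have h2top : stab2 G B ≠ ⊤ := by
      intro htop
      have hblock : IsBlock G B := by
        rw [isBlock_iff_smul_eq_or_disjoint]
        intro g
        have : g ∈ stab2 G B := by rw [htop]; trivial
        rcases this with h | h
        · left; exact h
        · right; rw [h]; exact disjoint_compl_left
      rcases hprim.isTrivialBlock_of_isBlock hblock with h | h
      · have := Set.ncard_le_one_iff_subsingleton.2 h
        omega
      · rw [h, Set.ncard_univ, Nat.card_eq_fintype_card] at hBm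
        omega
    have h2M : stab2 G B ≤ M := U _ (fun r hr => hRB r hr) h2top
    have hsM : stabilizer G B ≤ M := fun g hg => h2M (Or.inl hg)
    obtain ⟨a, ha, b, hb, hba⟩ := cross z (by omega) Bᶜ
      (by rw [← Set.ncard_pos (Set.toFinite _)]; omega)
      (by rw [compl_compl, ← Set.ncard_pos (Set.toFinite _)]; omega)
    have hbB : b ∈ B := by simpa using hb
    have hab : a ≠ b := fun h => ha (h ▸ hbB)
    obtain ⟨g, hgc, hga, hgb, hgu⟩ := exists_cent_elt hG.real z hz1 hz2 a b hab hba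
    have hgM : g ∈ M := hcM hgc
    obtain ⟨w, hwB, hw⟩ : ∃ w ∈ Bᶜ, w ∉ ({a, z a, z b} : Set α) := by
      apply Set.exists_mem_notMem_of_ncard_lt_ncard _ (Set.toFinite _)
      have : ({a, z a, z b} : Set α).ncard ≤ 3 := by
        refine (Set.ncard_insert_le _ _).trans ?_
        have := Set.ncard_insert_le (z a) ({z b} : Set α)
        rw [Set.ncard_singleton] at this
        omega
      omega
    simp only [Set.mem_insert_iff, Set.mem_singleton_iff, not_or] at hw
    have hwb : w ≠ b := fun h => hwB (h ▸ hbB)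
    have hgw : g • w = w := hgu w hw.1 hwb hw.2.1 hw.2.2
    have hlt : stabilizer G B < M := by
      refine lt_of_le_of_ne hsM ?_
      intro h
      rw [← h] at hgM
      have : g • b ∈ g • B := Set.smul_mem_smul_set hbB
      rw [hgM, hgb] at this
      exact ha this
    have hnb : ¬ IsBlock M Bᶜ := by
      intro hblock
      rcases isBlock_iff_smul_eq_or_disjoint.1 hblock ⟨g, hgM⟩ with h | h
      · have h1 : g • a ∈ (⟨g, hgM⟩ : M) • Bᶜ := Set.smul_mem_smul_set (a := (⟨g, hgM⟩ : M)) ha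
        rw [h, hga] at h1
        exact h1 hbB
      · have h1 : g • w ∈ (⟨g, hgM⟩ : M) • Bᶜ := Set.smul_mem_smul_set (a := (⟨g, hgM⟩ : M)) hwB
        rw [hgw] at h1
        exact Set.disjoint_left.1 h h1 hwB
    exact hM.1 (hG.half B M (by rw [← Set.one_lt_ncard_iff_nontrivial]; omega) (by omega) hlt hnb)
  by_cases h1 : orbit (R : Subgroup G) x = Set.univ
  · have htrans : IsPretransitive (R : Subgroup G) α := by
      rw [isPretransitive_iff_base x]
      intro y
      have : y ∈ orbit (R : Subgroup G) x := by rw [h1]; trivial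
      exact this
    obtain ⟨B, hB, hRB⟩ := exists_half_block (α := α) (R := (R : Subgroup G)) R.2 (by omega)
    exact key B hB (fun r hr => hRB ⟨r, hr⟩)
  · by_cases h2 : Fintype.card α = 2 * (orbit (R : Subgroup G) x).ncard
    · exact key _ h2.symm (fun r hr => Or.inl (le_stab_orbit (R : Subgroup G) x hr))
    · have hne : (orbit (R : Subgroup G) x)ᶜ.Nonempty := by
        rw [Set.nonempty_compl]; exact h1
      have hco := hG.coatom _ ⟨x, mem_orbit_self x⟩ hne (by rwa [Nat.card_eq_fintype_card])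
      have e := huniq _ hco (le_stab_orbit _ x)
      obtain ⟨a, ha, b, hb, hba⟩ := cross z (by omega) _ ⟨x, mem_orbit_self x⟩ hne
      have hab : a ≠ b := fun h => hb (h ▸ ha)
      obtain ⟨g, hgc, hga, -, -⟩ := exists_cent_elt hG.real z hz1 hz2 a b hab hba
      have hgM := hcM hgc
      rw [← e] at hgM
      apply hb
      rw [← hga, ← hgM]
      exact Set.smul_mem_smul_set ha

theorem main {G : Type*} [Group G] [Finite G] [MulAction G α] (hG : Big (α := α) G)
    (h5 : 5 ≤ Fintype.card α) (h6 : Fintype.card α ≠ 6) (R : Sylow 2 G) :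
    (∃! M : Subgroup G, IsCoatom M ∧ (R : Subgroup G) ≤ M) ↔
      ∃ k : ℕ, 2 ≤ k ∧ Fintype.card α = 2 ^ k + 1 := by
  constructor
  · rintro ⟨M, ⟨hM, -⟩, huniq⟩
    by_contra hk
    by_cases hodd : 2 ∣ Fintype.card α
    · obtain ⟨m, hm⟩ := hodd
      exact not_unique_even hG R m (by omega) hm M hM (fun M' h1 h2 => huniq M' ⟨h1, h2⟩)
    · exact not_unique_odd hG R h5 hodd hk M (fun M' h1 h2 => huniq M' ⟨h1, h2⟩)
  · rintro ⟨k, hk, hn⟩
    exact unique_of_pow hG R k hk hn


theorem big_perm (h5 : 5 ≤ Fintype.card α) : Big (α := α) (Perm α) where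
  two := by
    have := Equiv.Perm.isMultiplyPretransitive α 2
    rw [is_two_pretransitive_iff] at this
    intro a b c d hab hcd
    exact this hab hcd
  real := fun π _ => ⟨π, fun _ => rfl⟩
  coatom := fun s h1 h2 h3 => Equiv.Perm.isCoatom_stabilizer h1 h2 h3
  half := fun s K _ h2 h3 h4 => half_perm h2 K h3 h4
  cz := by
    intro R m hm0 hm
    obtain ⟨z, h1, h2, h3⟩ := exists_fpf_commute R m hm0 hm
    exact ⟨z, h1, h2, fun g hg x => congrFun (congrArg DFunLike.coe (h3 g hg)) x⟩
  primtop := by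
    intro R k _ _ x₀ _ _ K hRK hK
    obtain ⟨a, b, hab, hs⟩ := exists_swap_mem R (by omega)
    exact subgroup_eq_top_of_isPreprimitive_of_isSwap_mem hK (swap a b) ⟨a, b, hab, rfl⟩ (hRK hs)

theorem exists_sylow_perm (R : Sylow 2 (alternatingGroup α)) :
    ∃ P : Sylow 2 (Perm α), ∀ g : alternatingGroup α, g ∈ R ↔ (g : Perm α) ∈ P := by
  obtain ⟨P, hP⟩ := (R.2.map (alternatingGroup α).subtype).exists_le_sylow
  refine ⟨P, fun g => ⟨fun hg => hP ⟨g, hg, rfl⟩, fun hg => ?_⟩⟩
  have hQ : IsPGroup 2 ((P : Subgroup (Perm α)).comap (alternatingGroup α).subtype) :=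
    P.2.comap_of_injective _ (Subgroup.subtype_injective _)
  have hle : (R : Subgroup (alternatingGroup α)) ≤
      (P : Subgroup (Perm α)).comap (alternatingGroup α).subtype := fun r hr => hP ⟨r, hr, rfl⟩
  have := R.is_maximal' hQ hle
  have h2 : g ∈ (P : Subgroup (Perm α)).comap (alternatingGroup α).subtype := hg
  rw [this] at h2
  exact h2

theorem alt_top_of_threeCycle (K : Subgroup (alternatingGroup α)) (hK : IsPreprimitive K α)
    (g : Perm α) (hg : g ∈ K.map (alternatingGroup α).subtype) (h3 : IsThreeCycle g) : K = ⊤ := by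
  rw [eq_top_iff, ← Subgroup.map_subtype_le_map_subtype,
    ← MonoidHom.range_eq_map, Subgroup.range_subtype]
  apply alternatingGroup_le_of_isPreprimitive_of_isThreeCycle_mem _ h3 hg
  let ψ := (alternatingGroup α).subtype.subgroupMap K
  let f : α →ₑ[ψ] α := {
    toFun := id
    map_smul' _ _ := rfl }
  rwa [← isPreprimitive_congr (f := f) ((alternatingGroup α).subtype.subgroupMap_surjective K)
    Function.bijective_id]

theorem alt5_top (h5 : Fintype.card α = 5) (R : Sylow 2 (alternatingGroup α))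
    (K : Subgroup (alternatingGroup α)) (hRK : (R : Subgroup (alternatingGroup α)) ≤ K)
    (hK : IsPretransitive K α) : K = ⊤ := by
  have : Nontrivial α := Fintype.one_lt_card_iff_nontrivial.1 (by omega)
  have hcard : Nat.card (alternatingGroup α) = 60 := by
    rw [nat_card_alternatingGroup, Nat.card_eq_fintype_card, h5]; rfl
  have hR : Nat.card (R : Subgroup (alternatingGroup α)) = 4 := by
    rw [R.card_eq_multiplicity, hcard]
    have : (60 : ℕ).factorization 2 = 2 := by
      have h60 : (60 : ℕ) = 2 ^ 2 * 15 := by norm_num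
      rw [h60, Nat.factorization_mul (by norm_num) (by norm_num), Nat.factorization_pow]
      simp [Nat.Prime.factorization_self Nat.prime_two,
        Nat.factorization_eq_zero_of_not_dvd (by norm_num : ¬ 2 ∣ 15)]
    rw [this]; norm_num
  have h4 : 4 ∣ Nat.card K := hR ▸ Subgroup.card_dvd_of_le hRK
  obtain ⟨x⟩ : Nonempty α := Fintype.card_pos_iff.1 (by omega)
  have h5' : 5 ∣ Nat.card K := by
    have := index_stabilizer_of_transitive K x
    rw [Nat.card_eq_fintype_card, h5] at this
    rw [← this]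
    exact Subgroup.index_dvd_card _
  have h20 : 20 ∣ Nat.card K := by
    have : Nat.Coprime 4 5 := by norm_num
    exact this.mul_dvd_of_dvd_of_dvd h4 h5'
  have hmul := K.card_mul_index
  rw [hcard] at hmul
  obtain ⟨c, hc⟩ := h20
  rw [hc] at hmul
  have hidx : c * K.index = 3 := by nlinarith
  have hdvd : K.index ∣ 3 := Dvd.intro_left _ hidx
  rcases (Nat.dvd_prime Nat.prime_three).1 hdvd with h | h
  · exact Subgroup.index_eq_one.1 h
  · exfalso
    have hsimple := alternatingGroup.isSimpleGroup (α := α) (by rw [Nat.card_eq_fintype_card]; omega)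
    have hd : K.normalCore.index ∣ K.index ! := by
      rw [Subgroup.normalCore_eq_ker, Subgroup.index_ker, Subgroup.index_eq_card, ← Nat.card_perm]
      exact Subgroup.card_subgroup_dvd_card (toPermHom (alternatingGroup α) (alternatingGroup α ⧸ K)).range
    rcases hsimple.eq_bot_or_eq_top_of_normal K.normalCore K.normalCore_normal with hb | ht
    · rw [hb, Subgroup.index_bot, hcard, h] at hd
      norm_num [Nat.factorial] at hd
    · have : K = ⊤ := top_le_iff.1 (ht ▸ K.normalCore_le)
      rw [this, Subgroup.index_top] at h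
      omega


theorem big_alt (h5 : 5 ≤ Fintype.card α) : Big (α := α) (alternatingGroup α) where
  two := by
    have h1 := alternatingGroup.isMultiplyPretransitive α
    have h2 : IsMultiplyPretransitive (alternatingGroup α) α 2 :=
      isMultiplyPretransitive_of_le (n := Nat.card α - 2)
        (by rw [Nat.card_eq_fintype_card]; omega) (Nat.sub_le _ _)
    rw [is_two_pretransitive_iff] at h2
    intro a b c d hab hcd
    exact h2 hab hcd
  real := fun π hπ => ⟨⟨π, hπ⟩, fun _ => rfl⟩
  coatom := fun s h1 h2 h3 => alternatingGroup.isCoatom_stabilizer h1 h2 h3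
  half := fun s K h1 h2 h3 h4 => half_alt h1 h2 K h3 h4 (by rw [Nat.card_eq_fintype_card]; omega)
  cz := by
    intro R m hm0 hm
    obtain ⟨P, hP⟩ := exists_sylow_perm R
    obtain ⟨z, h1, h2, h3⟩ := exists_fpf_commute P m hm0 hm
    exact ⟨z, h1, h2, fun g hg x => congrFun (congrArg DFunLike.coe (h3 g ((hP g).1 hg))) x⟩
  primtop := by
    intro R k hk hn x₀ hfix htr K hRK hK
    have hKt : IsPretransitive K α := hK.toIsPretransitive
    rcases hk.lt_or_eq with hk3 | rfl
    · have h8 : 8 ≤ 2 ^ k := by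
        calc 8 = 2 ^ 3 := by norm_num
          _ ≤ 2 ^ k := Nat.pow_le_pow_right (by norm_num) hk3
      obtain ⟨P, hP⟩ := exists_sylow_perm R
      have hnd : ¬ 2 ∣ Nat.card α := by
        rw [Nat.card_eq_fintype_card, hn]
        have : 2 ∣ 2 ^ k := dvd_pow_self 2 (by omega)
        omega
      obtain ⟨x₁, hx₁⟩ := P.2.nonempty_fixed_point_of_prime_not_dvd_card α hnd
      have hx10 : x₁ = x₀ := by
        by_contra hne
        obtain ⟨w, hw⟩ := exists_not_mem_list [x₀, x₁] (by simp; omega)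
        simp only [List.mem_cons, List.not_mem_nil, or_false, not_or] at hw
        obtain ⟨r, hr, hrw⟩ := htr x₁ w hne hw.1
        have := hx₁ ⟨(r : Perm α), (hP r).1 hr⟩
        apply hw.2
        rw [← hrw]
        exact this
      subst hx10
      obtain ⟨g, hg, h3⟩ := exists_threeCycle P x₁ (fun r hr => hx₁ ⟨r, hr⟩)
        (fun y w hy hw => by
          obtain ⟨r, hr, hrw⟩ := htr y w hy hw
          exact ⟨r, (hP r).1 hr, hrw⟩) (by omega) (K.map (alternatingGroup α).subtype)
        (fun a b c d hab hcd h1 h2 => by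
          have hmem : swap a b * swap c d ∈ alternatingGroup α := by
            rw [mem_alternatingGroup, Perm.sign_mul, sign_swap hab, sign_swap hcd]; simp
          exact ⟨⟨_, hmem⟩, hRK ((hP ⟨_, hmem⟩).2 (P.mul_mem h1 h2)), rfl⟩)
        (fun p => by
          obtain ⟨m, hm⟩ := hKt.exists_smul_eq p x₁
          exact ⟨_, ⟨m.1, m.2, rfl⟩, hm⟩)
      exact alt_top_of_threeCycle K hK g hg h3
    · exact alt5_top (by rw [hn]; norm_num) R K hRK hKt

end Cfsg.Agent.Lib.Helper43Syl2B
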