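import Mathlib
import Cfsg.Prelude.Def_Characters
import Cfsg.Agent.Lib.Helper4Char4
import Cfsg.Agent.Lib.Helper83Char
import Cfsg.Agent.Lib.Helper82Linear

set_option autoImplicit false

namespace Cfsg.Agent.Lib.Helper44Ab

open Cfsg Cfsg.Agent.Lib.Helper4Char Cfsg.Agent.Lib.Helper4Char4

/-- numerical invariants of a character of an abelian group -/
theorem abelian_char_numerics {A : Type*} [Group A] [IsMulCommutative A] [Fintype A] (τ : A → ℂ)
    (hτ : IsCharacter A τ) :
    ∃ N m0 : ℕ, classInner τ τ = N ∧ τ 1 = m0 ∧ m0 ≤ N ∧ N ≤ m0 ^ 2 ∧ (m0 = 0 → τ = 0) := by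
  obtain ⟨m, hm1, hm2⟩ := IsCharacter.eq_sum_nat hτ
  refine ⟨∑ χ, (m χ) ^ 2, ∑ χ, m χ, ?_, ?_, ?_, ?_, ?_⟩
  · rw [classInner_eq_sum τ τ (IsCharacter.isClassFunction hτ)]
    push_cast
    apply Finset.sum_congr rfl
    intro χ _
    rw [← classInner_conj_symm τ χ, hm2]
    simp [sq]
  · conv_lhs => rw [hm1]
    rw [Finset.sum_apply]
    push_cast
    apply Finset.sum_congr rfl
    intro χ _
    rw [Pi.smul_apply, Cfsg.Agent.Lib.Helper83Char.irr_one_of_comm χ.2]
    simp
  · apply Finset.sum_le_sum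
    intro χ _
    nlinarith [Nat.zero_le (m χ)]
  · rw [sq (∑ χ, m χ), Finset.sum_mul]
    apply Finset.sum_le_sum
    intro χ _
    rw [sq]
    exact Nat.mul_le_mul_left _ (Finset.single_le_sum (fun _ _ => Nat.zero_le _) (Finset.mem_univ χ))
  · intro h0
    have h1 : ∀ χ, m χ = 0 := by
      intro χ
      exact (Finset.sum_eq_zero_iff.mp h0) χ (Finset.mem_univ χ)
    rw [hm1]
    simp [h1]

/-- multiplication by a central element -/
theorem irr_central_mul {G : Type*} [Group G] [Fintype G] {χ : G → ℂ} (hχ : IsIrrCharacter G χ)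
    (z : G) (hz : ∀ g : G, g * z = z * g) (g : G) : χ (z * g) = χ z * χ g / χ 1 := by
  classical
  have hf : IsClassFunction G (fun x => if x = z then (1 : ℂ) else 0) := by
    intro x h
    have : h * x * h⁻¹ = z ↔ x = z := by
      rw [mul_inv_eq_iff_eq_mul, ← hz h]
      exact mul_left_cancel_iff
    simp only [this]
  have := Cfsg.Agent.Lib.Helper83Char.irr_key hχ _ hf g
  simpa using this

theorem irr_central_norm {G : Type*} [Group G] [Fintype G] {χ : G → ℂ} (hχ : IsIrrCharacter G χ)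
    (z : G) (hz : ∀ g : G, g * z = z * g) : χ z * (starRingEnd ℂ) (χ z) = χ 1 ^ 2 := by
  have h1 := irr_central_mul hχ z hz z⁻¹
  rw [mul_inv_cancel, Cfsg.Agent.Lib.Helper83Char.irr_inv hχ] at h1
  have h0 := Cfsg.Agent.Lib.Helper83Char.irr_one_ne_zero hχ
  field_simp at h1
  linear_combination -h1

theorem irr_central_mul_norm {G : Type*} [Group G] [Fintype G] {χ : G → ℂ}
    (hχ : IsIrrCharacter G χ) (z : G) (hz : ∀ g : G, g * z = z * g) (g : G) :
    χ (z * g) * (starRingEnd ℂ) (χ (z * g)) = χ g * (starRingEnd ℂ) (χ g) := by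
  rw [irr_central_mul hχ z hz g]
  have h0 := Cfsg.Agent.Lib.Helper83Char.irr_one_ne_zero hχ
  have h1 := irr_central_norm hχ z hz
  obtain ⟨n, _, hn⟩ := Cfsg.Agent.Lib.Helper83Char.irr_one hχ
  have h2 : (starRingEnd ℂ) (χ 1) = χ 1 := by rw [hn]; simp
  rw [map_div₀, map_mul, h2]
  field_simp
  linear_combination (χ g * (starRingEnd ℂ) (χ g)) * h1

end Cfsg.Agent.Lib.Helper44Ab
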