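import Mathlib

set_option autoImplicit false

namespace Cfsg.Agent.Lib.Helper44Alt

open Equiv Equiv.Perm

/-- Every finite group embeds in `alternatingGroup (Fin n)` as soon as `2 * |H| ≤ n`. -/
theorem exists_embedding_alternating (H : Type*) [Group H] [Fintype H] (n : ℕ)
    (hn : 2 * Fintype.card H ≤ n) :
    ∃ ι : H →* alternatingGroup (Fin n), Function.Injective ι := by
  classical
  let γ := Fin (n - 2 * Fintype.card H)
  have hcard : Fintype.card (H ⊕ (H ⊕ γ)) = Fintype.card (Fin n) := by
    simp only [Fintype.card_sum, Fintype.card_fin, γ]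
    omega
  let e : (H ⊕ (H ⊕ γ)) ≃ Fin n := Fintype.equivOfCardEq hcard
  let c : H →* Perm H := MulAction.toPermHom H H
  have hc : Function.Injective c := MulAction.toPerm_injective
  let d : Perm H →* Perm (H ⊕ (H ⊕ γ)) :=
    (sumCongrHom H (H ⊕ γ)).comp
      ((MonoidHom.id (Perm H)).prod ((sumCongrHom H γ).comp ((MonoidHom.id (Perm H)).prod 1)))
  have hd : Function.Injective d := by
    intro σ τ h
    have := sumCongrHom_injective h
    simpa using congrArg Prod.fst this
  have hsign : ∀ σ : Perm H, sign (d σ) = 1 := by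
    intro σ
    have : d σ = sumCongr σ (sumCongr σ 1) := rfl
    rw [this, sign_sumCongr, sign_sumCongr, Perm.sign_one, mul_one]
    exact Int.units_mul_self _
  let φ : H →* Perm (Fin n) := (e.permCongrHom.toMonoidHom.comp d).comp c
  have hφ : Function.Injective φ := by
    intro x y h
    exact hc (hd (e.permCongrHom.injective h))
  have hmem : ∀ x, φ x ∈ alternatingGroup (Fin n) := by
    intro x
    rw [mem_alternatingGroup]
    have : φ x = e.permCongr (d (c x)) := rfl
    rw [this, sign_permCongr, hsign]
  refine ⟨φ.codRestrict _ hmem, ?_⟩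
  intro x y h
  apply hφ
  exact congrArg Subtype.val h

end Cfsg.Agent.Lib.Helper44Alt
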