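import Mathlib
import Cfsg.Prelude.Def_Characters
import Cfsg.Agent.Lib.Helper4Char4
import Cfsg.Agent.Lib.Helper82Linear

set_option autoImplicit false

namespace Cfsg.Agent.Lib.Helper44Four

open Cfsg Cfsg.Agent.Lib.Helper4Char Cfsg.Agent.Lib.Helper4Char4

variable {F : Type*} [Field F] [Fintype F]

/-- Fourier coefficients of a function on the additive group of a finite field -/
noncomputable def coef (ψ : AddChar F ℂ) (f : F → ℂ) (a : F) : ℂ :=
  (Fintype.card F : ℂ)⁻¹ * ∑ c : F, f c * (starRingEnd ℂ) (ψ (a * c))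

theorem coef_nat {G : Type*} [Group G] (ψ : AddChar F ℂ) (u : Multiplicative F →* G) (χ : G → ℂ)
    (hχ : IsCharacter G χ) (a : F) :
    ∃ n : ℕ, coef ψ (fun c => χ (u (Multiplicative.ofAdd c))) a = n := by
  classical
  have h1 : IsCharacter (Multiplicative F) (fun c => χ (u c)) := IsCharacter.comp u hχ
  have h2 := Cfsg.Agent.Lib.Helper82Linear.isIrrCharacter_of_hom
    (AddChar.toMonoidHom (AddChar.mulShift ψ a)).toHomUnits
  obtain ⟨n, hn⟩ := IsCharacter.classInner_nat h1 (IsIrrCharacter.isCharacter h2)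
  refine ⟨n, ?_⟩
  rw [← hn]
  unfold coef classInner
  rw [Nat.card_eq_fintype_card, Fintype.card_multiplicative]
  congr 1
  rw [← Equiv.sum_comp Multiplicative.ofAdd]
  apply Finset.sum_congr rfl
  intro c _
  simp only [MonoidHom.coe_toHomUnits, AddChar.toMonoidHom_apply, AddChar.mulShift_apply]
  rfl

theorem sum_psi [DecidableEq F] (ψ : AddChar F ℂ) (hψ : ψ.IsPrimitive) (c c' : F) :
    ∑ a : F, ψ (a * c) * (starRingEnd ℂ) (ψ (a * c')) =
      if c = c' then (Fintype.card F : ℂ) else 0 := by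
  have h1 : ∀ a : F, ψ (a * c) * (starRingEnd ℂ) (ψ (a * c')) = ψ (a * (c - c')) := by
    intro a
    rw [← AddChar.map_neg_eq_conj, ← AddChar.map_add_eq_mul]
    congr 1
    ring
  simp only [h1]
  rw [AddChar.sum_mulShift _ hψ]
  simp only [sub_eq_zero]
  split_ifs <;> simp

theorem coef_inversion (ψ : AddChar F ℂ) (hψ : ψ.IsPrimitive) (f : F → ℂ) (c : F) :
    f c = ∑ a : F, coef ψ f a * ψ (a * c) := by
  classical
  unfold coef
  have hq : (Fintype.card F : ℂ) ≠ 0 := by exact_mod_cast Fintype.card_ne_zero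
  have h1 : ∀ a : F, (Fintype.card F : ℂ)⁻¹ *
      (∑ c' : F, f c' * (starRingEnd ℂ) (ψ (a * c'))) * ψ (a * c) =
      (Fintype.card F : ℂ)⁻¹ *
      ∑ c' : F, f c' * (ψ (a * c) * (starRingEnd ℂ) (ψ (a * c'))) := by
    intro a
    rw [mul_assoc, Finset.sum_mul]
    congr 1
    apply Finset.sum_congr rfl
    intro c' _
    ring
  simp only [h1]
  rw [← Finset.mul_sum, Finset.sum_comm]
  simp only [← Finset.mul_sum, sum_psi ψ hψ]
  simp only [mul_ite, mul_zero]
  rw [Finset.sum_ite_eq Finset.univ c]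
  simp only [Finset.mem_univ, if_true]
  field_simp

theorem coef_sum (ψ : AddChar F ℂ) (hψ : ψ.IsPrimitive) (f : F → ℂ) :
    f 0 = ∑ a : F, coef ψ f a := by
  have := coef_inversion ψ hψ f 0
  simpa using this

/-- invariance of the coefficients under a scaling preserving `f` -/
theorem coef_smul (ψ : AddChar F ℂ) (f : F → ℂ) (κ : F) (hκ : κ ≠ 0)
    (hf : ∀ c, f (κ * c) = f c) (a : F) : coef ψ f (a * κ⁻¹) = coef ψ f a := by
  unfold coef
  congr 1
  rw [← Equiv.sum_comp (Equiv.mulLeft₀ κ hκ)]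
  apply Finset.sum_congr rfl
  intro c _
  simp only [Equiv.mulLeft₀_apply]
  rw [hf]
  congr 3
  field_simp

/-- if all scalings preserve `f`, there are only two coefficients -/
theorem two_coef (ψ : AddChar F ℂ) (hψ : ψ.IsPrimitive) (f : F → ℂ)
    (hf : ∀ κ : F, κ ≠ 0 → ∀ c, f (κ * c) = f c) :
    (∀ a : F, a ≠ 0 → coef ψ f a = coef ψ f 1) ∧
    f 0 = coef ψ f 0 + ((Fintype.card F : ℂ) - 1) * coef ψ f 1 ∧
    (∀ c : F, c ≠ 0 → f c = coef ψ f 0 - coef ψ f 1) := by
  classical
  have h1 : ∀ a : F, a ≠ 0 → coef ψ f a = coef ψ f 1 := by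
    intro a ha
    have := coef_smul ψ f a⁻¹ (inv_ne_zero ha) (hf _ (inv_ne_zero ha)) 1
    rw [inv_inv, one_mul] at this
    exact this
  have h2 : ∀ a : F, coef ψ f a = coef ψ f 1 + (if a = 0 then coef ψ f 0 - coef ψ f 1 else 0) := by
    intro a
    split_ifs with h
    · rw [h]; ring
    · rw [h1 a h]; ring
  refine ⟨h1, ?_, ?_⟩
  · rw [coef_sum ψ hψ f]
    conv_lhs => rw [Finset.sum_congr rfl (fun a _ => h2 a)]
    rw [Finset.sum_add_distrib, Finset.sum_ite_eq' Finset.univ (0 : F)]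
    simp
    ring
  · intro c hc
    rw [coef_inversion ψ hψ f c]
    have h3 : ∀ a : F, coef ψ f a * ψ (a * c) =
        coef ψ f 1 * ψ (a * c) + (if a = 0 then coef ψ f 0 - coef ψ f 1 else 0) := by
      intro a
      split_ifs with h
      · subst h
        simp
      · rw [h1 a h]; ring
    simp only [h3]
    rw [Finset.sum_add_distrib, Finset.sum_ite_eq' Finset.univ (0 : F), ← Finset.mul_sum,
      AddChar.sum_mulShift c hψ, if_neg hc]
    simp

end Cfsg.Agent.Lib.Helper44Four
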