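import Mathlib
import Cfsg.Agent.Lib.Helper44Wt
import Cfsg.Agent.Lib.Helper44Ab
import Cfsg.Agent.Lib.Helper83Char

set_option autoImplicit false

namespace Cfsg.Agent.Lib.Helper44Heis

open Cfsg Cfsg.Agent.Lib.Helper4Char Cfsg.Agent.Lib.Helper4Char4 Cfsg.Agent.Lib.Helper44Wt
  Cfsg.Agent.Lib.Helper44Ab

section General

variable {E : Type*} [Group E] [Fintype E] {A : Type*} [AddCommGroup A] [Fintype A]

/-- an irreducible character lying over a "fully ramified" central character -/
theorem irr_central_bound (u : Multiplicative A →* E) (hc : ∀ a g, g * u a = u a * g)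
    (hinj : Function.Injective u) (l : AddChar A ℂ)
    (hl : ∀ g, g ∉ Set.range u → ∃ h a, h * g * h⁻¹ = u (Multiplicative.ofAdd a) * g ∧ l a ≠ 1)
    (ξ : E → ℂ) (hξ : IsIrrCharacter E ξ) (hw : wt u ξ l ≠ 0) :
    ∃ d : ℕ, wt u ξ l = d ∧ Fintype.card E = Fintype.card A * d ^ 2 := by
  classical
  have h1ne := Cfsg.Agent.Lib.Helper83Char.irr_one_ne_zero hξ
  obtain ⟨d, hdpos, hd⟩ := Cfsg.Agent.Lib.Helper83Char.irr_one hξ
  have hcent : ∀ (b : A) (x : E), ξ (u (Multiplicative.ofAdd b) * x) =
      ξ (u (Multiplicative.ofAdd b)) * ξ x / ξ 1 :=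
    fun b x => irr_central_mul hξ _ (hc _) x
  have hpsi : ∀ b : A, l b * (starRingEnd ℂ) (l b) = 1 := by
    intro b
    rw [← AddChar.map_neg_eq_conj, ← AddChar.map_add_eq_mul, add_neg_cancel,
      AddChar.map_zero_eq_one]
  have hAne : (Fintype.card A : ℂ) ≠ 0 := by exact_mod_cast Fintype.card_ne_zero
  set S := ∑ b : A, ξ (u (Multiplicative.ofAdd b)) * (starRingEnd ℂ) (l b) with hSdef
  have hS : S ≠ 0 := by
    intro h0
    apply hw
    unfold wt
    rw [← hSdef, h0, mul_zero]
  have hω : ∀ b0, ξ (u (Multiplicative.ofAdd b0)) = ξ 1 * l b0 := by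
    intro b0
    have e1 : S = ∑ b : A, ξ (u (Multiplicative.ofAdd (b0 + b))) *
        (starRingEnd ℂ) (l (b0 + b)) := by
      rw [hSdef, ← Equiv.sum_comp (Equiv.addLeft b0)]
      rfl
    have e2 : ∑ b : A, ξ (u (Multiplicative.ofAdd (b0 + b))) * (starRingEnd ℂ) (l (b0 + b)) =
        (ξ (u (Multiplicative.ofAdd b0)) / ξ 1 * (starRingEnd ℂ) (l b0)) * S := by
      rw [hSdef, Finset.mul_sum]
      apply Finset.sum_congr rfl
      intro b _
      rw [ofAdd_add, map_mul, hcent, AddChar.map_add_eq_mul, map_mul]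
      ring
    rw [e2] at e1
    have e3 : ξ (u (Multiplicative.ofAdd b0)) / ξ 1 * (starRingEnd ℂ) (l b0) = 1 := by
      have : (ξ (u (Multiplicative.ofAdd b0)) / ξ 1 * (starRingEnd ℂ) (l b0) - 1) * S = 0 := by
        linear_combination -e1
      have := (mul_eq_zero.mp this).resolve_right hS
      linear_combination this
    have e4 := hpsi b0
    field_simp at e3
    calc ξ (u (Multiplicative.ofAdd b0))
        = ξ (u (Multiplicative.ofAdd b0)) * (l b0 * (starRingEnd ℂ) (l b0)) := by
          rw [e4, mul_one]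
      _ = (ξ (u (Multiplicative.ofAdd b0)) * (starRingEnd ℂ) (l b0)) * l b0 := by ring
      _ = ξ 1 * l b0 := by rw [e3]
  refine ⟨d, ?_, ?_⟩
  · unfold wt
    have : ∀ b : A, ξ (u (Multiplicative.ofAdd b)) * (starRingEnd ℂ) (l b) = d := by
      intro b
      rw [hω, mul_assoc, hpsi, mul_one, hd]
    simp only [this, Finset.sum_const, Finset.card_univ, nsmul_eq_mul]
    field_simp
  · have hcl := IsIrrCharacter.isClassFunction hξ
    have hvan : ∀ g, g ∉ Set.range u → ξ g = 0 := by
      intro g hg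
      obtain ⟨h, a, e1, hne⟩ := hl g hg
      have e2 := hcl g h
      rw [e1, hcent, hω] at e2
      have e3 : (l a - 1) * ξ g = 0 := by
        field_simp at e2
        linear_combination e2
      exact (mul_eq_zero.mp e3).resolve_left (sub_ne_zero.mpr hne)
    have h0 := classInner_irr_self hξ
    unfold classInner at h0
    have hP : (Nat.card E : ℂ) ≠ 0 := by exact_mod_cast Nat.card_pos.ne'
    field_simp at h0
    have h2 : ∑ g : E, ξ g * (starRingEnd ℂ) (ξ g) =
        ∑ g ∈ Finset.univ.image u, ξ g * (starRingEnd ℂ) (ξ g) := by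
      symm
      apply Finset.sum_subset (Finset.subset_univ _)
      intro g _ hg
      rw [hvan g, zero_mul]
      rintro ⟨a, rfl⟩
      exact hg (Finset.mem_image_of_mem _ (Finset.mem_univ _))
    rw [h2, Finset.sum_image (fun a _ b _ h => hinj h)] at h0
    have h3 : ∀ a : Multiplicative A, ξ (u a) * (starRingEnd ℂ) (ξ (u a)) = (d : ℂ) ^ 2 := by
      intro a
      have := hω (Multiplicative.toAdd a)
      rw [ofAdd_toAdd] at this
      rw [this, map_mul, hd, Complex.conj_natCast]
      have := hpsi (Multiplicative.toAdd a)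
      linear_combination (d : ℂ) ^ 2 * this
    simp only [h3, Finset.sum_const, Finset.card_univ, nsmul_eq_mul,
      Fintype.card_multiplicative, Nat.card_eq_fintype_card] at h0
    exact_mod_cast h0.symm

/-- multiplicities of a fully ramified central character are large -/
theorem central_mult (u : Multiplicative A →* E) (hc : ∀ a g, g * u a = u a * g)
    (hinj : Function.Injective u) (l : AddChar A ℂ)
    (hl : ∀ g, g ∉ Set.range u → ∃ h a, h * g * h⁻¹ = u (Multiplicative.ofAdd a) * g ∧ l a ≠ 1)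
    (χ : E → ℂ) (hχ : IsCharacter E χ) (n : ℕ) (hn : wt u χ l = n) (hn0 : n ≠ 0) :
    Fintype.card E ≤ Fintype.card A * n ^ 2 := by
  classical
  obtain ⟨a, ha1, _⟩ := IsCharacter.eq_sum_nat hχ
  have hL : ∀ ξ : IrrCharacter E, ∃ d : ℕ, wt u (ξ : E → ℂ) l = d ∧
      (d ≠ 0 → Fintype.card E = Fintype.card A * d ^ 2) := by
    intro ξ
    by_cases hS : wt u (ξ : E → ℂ) l = 0
    · exact ⟨0, by rw [hS]; simp, fun h => absurd rfl h⟩
    · obtain ⟨d, hd, hdm⟩ := irr_central_bound u hc hinj l hl ξ ξ.2 hS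
      exact ⟨d, hd, fun _ => hdm⟩
  choose d hd1 hd2 using hL
  have hsum : (n : ℂ) = ((∑ ξ, a ξ * d ξ : ℕ) : ℂ) := by
    rw [← hn]
    have e1 : ∀ g : E, χ g = ∑ ξ : IrrCharacter E, (a ξ : ℂ) * (ξ : E → ℂ) g := by
      intro g
      have := congrFun ha1 g
      rw [Finset.sum_apply] at this
      simp only [Pi.smul_apply, smul_eq_mul] at this
      exact this
    push_cast
    simp only [← hd1]
    unfold wt
    simp only [e1, Finset.sum_mul]
    rw [Finset.sum_comm, Finset.mul_sum]
    apply Finset.sum_congr rfl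
    intro ξ _
    rw [Finset.mul_sum, Finset.mul_sum, Finset.mul_sum]
    apply Finset.sum_congr rfl
    intro c _
    ring
  have hsum' : n = ∑ ξ, a ξ * d ξ := by exact_mod_cast hsum
  have hne : ∑ ξ, a ξ * d ξ ≠ 0 := by rw [← hsum']; exact hn0
  obtain ⟨ξ0, _, hξ0⟩ := Finset.exists_ne_zero_of_sum_ne_zero hne
  have ha0 : a ξ0 ≠ 0 := left_ne_zero_of_mul hξ0
  have hl0 : d ξ0 ≠ 0 := right_ne_zero_of_mul hξ0
  have hle : d ξ0 ≤ n := by
    calc d ξ0 ≤ a ξ0 * d ξ0 := Nat.le_mul_of_pos_left _ (Nat.pos_of_ne_zero ha0)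
      _ ≤ ∑ ξ, a ξ * d ξ :=
        Finset.single_le_sum (f := fun ξ => a ξ * d ξ) (fun _ _ => Nat.zero_le _)
          (Finset.mem_univ ξ0)
      _ = n := hsum'.symm
  rw [hd2 ξ0 hl0]
  exact Nat.mul_le_mul_left _ (Nat.pow_le_pow_left hle 2)

end General

section HG

variable {A B : Type*} [AddCommGroup A] [AddCommGroup B]

/-- the central extension of `A` by `B` defined by a biadditive cocycle -/
@[ext] structure HG (κ : A →+ A →+ B) where
  fst : A
  snd : B

variable (κ : A →+ A →+ B)

instance : Group (HG κ) where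
  mul x y := ⟨x.fst + y.fst, x.snd + y.snd + κ x.fst y.fst⟩
  one := ⟨0, 0⟩
  inv x := ⟨-x.fst, -x.snd + κ x.fst x.fst⟩
  mul_assoc x y z := by
    apply HG.ext
    · exact add_assoc _ _ _
    · show x.snd + y.snd + κ x.fst y.fst + z.snd + κ (x.fst + y.fst) z.fst =
        x.snd + (y.snd + z.snd + κ y.fst z.fst) + κ x.fst (y.fst + z.fst)
      rw [map_add, map_add, AddMonoidHom.add_apply]
      abel
  one_mul x := by
    apply HG.ext
    · exact zero_add _
    · show 0 + x.snd + κ 0 x.fst = x.snd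
      simp
  mul_one x := by
    apply HG.ext
    · exact add_zero _
    · show x.snd + 0 + κ x.fst 0 = x.snd
      simp
  inv_mul_cancel x := by
    apply HG.ext
    · exact neg_add_cancel _
    · show -x.snd + κ x.fst x.fst + x.snd + κ (-x.fst) x.fst = 0
      rw [map_neg, AddMonoidHom.neg_apply]
      abel

theorem HG.mul_fst (x y : HG κ) : (x * y).fst = x.fst + y.fst := rfl
theorem HG.mul_snd (x y : HG κ) : (x * y).snd = x.snd + y.snd + κ x.fst y.fst := rfl
theorem HG.one_fst : (1 : HG κ).fst = 0 := rfl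
theorem HG.one_snd : (1 : HG κ).snd = 0 := rfl

/-- the underlying product -/
def HG.equivProd : HG κ ≃ A × B where
  toFun x := (x.fst, x.snd)
  invFun p := ⟨p.1, p.2⟩
  left_inv _ := rfl
  right_inv _ := rfl

instance [Fintype A] [Fintype B] : Fintype (HG κ) := Fintype.ofEquiv _ (HG.equivProd κ).symm

theorem HG.card [Fintype A] [Fintype B] :
    Fintype.card (HG κ) = Fintype.card A * Fintype.card B := by
  rw [Fintype.card_congr (HG.equivProd κ), Fintype.card_prod]

/-- the central subgroup -/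
def zH : Multiplicative B →* HG κ where
  toFun b := ⟨0, Multiplicative.toAdd b⟩
  map_one' := rfl
  map_mul' b b' := by
    apply HG.ext
    · exact (add_zero _).symm
    · show Multiplicative.toAdd b + Multiplicative.toAdd b' =
        Multiplicative.toAdd b + Multiplicative.toAdd b' + κ 0 0
      simp

theorem heis_mult [Fintype A] [Fintype B] (l : AddChar B ℂ)
    (hl : ∀ c : A, c ≠ 0 → ∃ c' : A, l (κ c' c - κ c c') ≠ 1)
    (χ : HG κ → ℂ) (hχ : IsCharacter (HG κ) χ) (n : ℕ) (hn : wt (zH κ) χ l = n) (hn0 : n ≠ 0) :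
    Fintype.card A ≤ n ^ 2 := by
  have h := central_mult (zH κ) (by
      intro a g
      apply HG.ext
      · show g.fst + 0 = 0 + g.fst
        rw [add_zero, zero_add]
      · show g.snd + Multiplicative.toAdd a + κ g.fst 0 =
          Multiplicative.toAdd a + g.snd + κ 0 g.fst
        simp [add_comm])
    (by
      intro a b hab
      exact congrArg HG.snd hab) l (by
      intro g hg
      have hg0 : g.fst ≠ 0 := by
        intro h0
        apply hg
        refine ⟨Multiplicative.ofAdd g.snd, ?_⟩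
        apply HG.ext
        · exact h0.symm
        · rfl
      obtain ⟨c', hc'⟩ := hl g.fst hg0
      refine ⟨⟨c', 0⟩, _, ?_, hc'⟩
      rw [mul_inv_eq_iff_eq_mul]
      apply HG.ext
      · show c' + g.fst = 0 + g.fst + c'
        abel
      · show 0 + g.snd + κ c' g.fst =
          (κ c' g.fst - κ g.fst c') + g.snd + κ 0 g.fst + 0 + κ (0 + g.fst) c'
        simp
        abel) χ hχ n hn hn0
  rw [HG.card, mul_comm] at h
  exact Nat.le_of_mul_le_mul_left h Fintype.card_pos

/-- homomorphisms out of the central extension -/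
def HG.lift {G : Type*} [Group G] (h : A → G) (u : Multiplicative B →* G)
    (R1 : ∀ c c', h c * h c' = h (c + c') * u (Multiplicative.ofAdd (κ c c')))
    (R2 : ∀ c b, h c * u b = u b * h c) : HG κ →* G where
  toFun x := h x.fst * u (Multiplicative.ofAdd x.snd)
  map_one' := by
    show h 0 * u (Multiplicative.ofAdd 0) = 1
    have := R1 0 0
    rw [add_zero, map_zero] at this
    rw [ofAdd_zero, map_one, mul_one] at this ⊢
    exact mul_eq_left.mp this
  map_mul' x y := by
    show h (x.fst + y.fst) * u (Multiplicative.ofAdd (x.snd + y.snd + κ x.fst y.fst)) =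
      h x.fst * u (Multiplicative.ofAdd x.snd) * (h y.fst * u (Multiplicative.ofAdd y.snd))
    rw [add_comm (x.snd + y.snd), ofAdd_add, ofAdd_add, map_mul, map_mul, ← mul_assoc, ← R1,
      mul_assoc (h x.fst) (u _), ← mul_assoc (u _) (h y.fst), ← R2]
    simp only [mul_assoc]

theorem HG.lift_zH {G : Type*} [Group G] (h : A → G) (u : Multiplicative B →* G)
    (R1 : ∀ c c', h c * h c' = h (c + c') * u (Multiplicative.ofAdd (κ c c')))
    (R2 : ∀ c b, h c * u b = u b * h c) (b : Multiplicative B) :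
    HG.lift κ h u R1 R2 (zH κ b) = u b := by
  show h 0 * u b = u b
  have := R1 0 0
  rw [add_zero, map_zero, ofAdd_zero, map_one, mul_one] at this
  rw [mul_eq_left.mp this, one_mul]

/-- the multiplicity bound transported along a homomorphism from the central extension -/
theorem heis_mult_lift [Fintype A] [Fintype B] {G : Type*} [Group G] (h : A → G)
    (u : Multiplicative B →* G)
    (R1 : ∀ c c', h c * h c' = h (c + c') * u (Multiplicative.ofAdd (κ c c')))
    (R2 : ∀ c b, h c * u b = u b * h c) (l : AddChar B ℂ)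
    (hl : ∀ c : A, c ≠ 0 → ∃ c' : A, l (κ c' c - κ c c') ≠ 1)
    (χ : G → ℂ) (hχ : IsCharacter G χ) (n : ℕ) (hn : wt u χ l = n) (hn0 : n ≠ 0) :
    Fintype.card A ≤ n ^ 2 := by
  apply heis_mult κ l hl (fun x => χ (HG.lift κ h u R1 R2 x))
    (IsCharacter.comp (HG.lift κ h u R1 R2) hχ) n _ hn0
  rw [← hn]
  unfold wt
  simp only [HG.lift_zH]

end HG

end Cfsg.Agent.Lib.Helper44Heis
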