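import Mathlib
import Cfsg.Agent.Lib.Helper17Herm

set_option autoImplicit false

namespace Cfsg.Agent.Lib.Helper44HermOrb

open Cfsg.Agent.Lib.Helper17Herm

variable {F : Type*} [Field F] (σ : F →+* F)

/-- the norm-trace equation is solvable -/
theorem nt_solve [Finite F] (hσ : σ ≠ RingHom.id F) (hσ2 : ∀ a : F, σ (σ a) = a)
    (c d β : F) (hc0 : c ≠ 0) (hc : σ c = c) (hd : σ d = d) :
    ∃ t : F, t * σ t * c + t * β + σ t * σ β + d = 0 := by
  set e : F := (β * σ β / c - d) / c with he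
  have hfix : σ e = e := by
    rw [he, map_div₀, map_sub, map_div₀, map_mul, hσ2, hc, hd, mul_comm]
  obtain ⟨s, hs⟩ : ∃ s : F, s * σ s = e := by
    by_cases h0 : e = 0
    · exact ⟨0, by rw [h0]; simp⟩
    · exact norm_surj σ hσ hσ2 e h0 hfix
  refine ⟨s - σ β / c, ?_⟩
  rw [map_sub, map_div₀, hσ2, hc]
  have h1 : s * σ s * c = β * σ β / c - d := by
    rw [hs, he]; field_simp
  have h2 : (s - σ β / c) * (σ s - β / c) * c + (s - σ β / c) * β + (σ s - β / c) * σ β + d
      = s * σ s * c - β * σ β / c + d := by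
    field_simp
    ring
  rw [h2, h1]; ring

variable {k : ℕ}

/-- the congruence by an elementary matrix, in coordinates -/
def op (i : Fin k) (t : Fin k → F) (B : Matrix (Fin k) (Fin k) F) : Matrix (Fin k) (Fin k) F :=
  fun j l => B j l + t j * B i l + σ (t l) * B j i + t j * σ (t l) * B i i

structure Closed (Ω : Set (Matrix (Fin k) (Fin k) F)) : Prop where
  herm : ∀ B ∈ Ω, ∀ j l, σ (B j l) = B l j
  cl : ∀ B ∈ Ω, ∀ (i : Fin k) (t : Fin k → F), t i = 0 → op σ i t B ∈ Ω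

variable {σ}

theorem Closed.exists_diag [Finite F] {Ω : Set (Matrix (Fin k) (Fin k) F)} (h : Closed σ Ω)
    (hσ : σ ≠ RingHom.id F) (hσ2 : ∀ a : F, σ (σ a) = a)
    (B : Matrix (Fin k) (Fin k) F) (hB : B ∈ Ω) (hB0 : B ≠ 0) :
    ∃ B' ∈ Ω, ∃ a, B' a a ≠ 0 := by
  classical
  by_cases hd : ∃ a, B a a ≠ 0
  · exact ⟨B, hB, hd⟩
  push Not at hd
  obtain ⟨a, b, hab⟩ : ∃ a b, B a b ≠ 0 := by
    by_contra hcon
    push Not at hcon
    apply hB0
    ext a b
    exact hcon a b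
  have hne : a ≠ b := by
    rintro rfl
    exact hab (hd a)
  have hba : B b a ≠ 0 := by
    rw [← h.herm B hB a b]
    intro h0
    apply hab
    have := congrArg σ h0
    rwa [hσ2, map_zero] at this
  obtain ⟨z, hz⟩ := trace_surj σ hσ hσ2 1 (map_one σ)
  refine ⟨op σ b (Pi.single a (z / B b a)) B, h.cl B hB b _ (Pi.single_eq_of_ne hne.symm _), a, ?_⟩
  unfold op
  rw [Pi.single_eq_same, hd a, hd b, map_div₀, h.herm B hB b a]
  have : z / B b a * B b a = z := by field_simp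
  rw [this]
  have : σ z / B a b * B a b = σ z := by field_simp
  rw [this, mul_zero, add_zero, zero_add, hz]
  exact one_ne_zero

theorem Closed.move [Finite F] {Ω : Set (Matrix (Fin k) (Fin k) F)} (h : Closed σ Ω)
    (hσ : σ ≠ RingHom.id F) (hσ2 : ∀ a : F, σ (σ a) = a)
    (B : Matrix (Fin k) (Fin k) F) (hB : B ∈ Ω) (a i : Fin k) (hai : a ≠ i) (hBa : B a a ≠ 0)
    (c : F) (hc : σ c = c) : ∃ B' ∈ Ω, B' i i = c := by
  classical
  obtain ⟨τ, hτ⟩ := nt_solve σ hσ hσ2 (B a a) (B i i - c) (B a i) hBa (h.herm B hB a a)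
    (by rw [map_sub, h.herm B hB i i, hc])
  refine ⟨op σ a (Pi.single i τ) B, h.cl B hB a _ (Pi.single_eq_of_ne hai _), ?_⟩
  unfold op
  rw [Pi.single_eq_same]
  rw [h.herm B hB a i] at hτ
  linear_combination hτ

theorem Closed.exists_entry [Finite F] {Ω : Set (Matrix (Fin k) (Fin k) F)} (h : Closed σ Ω)
    (hσ : σ ≠ RingHom.id F) (hσ2 : ∀ a : F, σ (σ a) = a) (hk : 2 ≤ k)
    (B : Matrix (Fin k) (Fin k) F) (hB : B ∈ Ω) (hB0 : B ≠ 0) (i : Fin k)
    (c : F) (hc : σ c = c) : ∃ B' ∈ Ω, B' i i = c := by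
  classical
  obtain ⟨B1, hB1, a, ha⟩ := h.exists_diag hσ hσ2 B hB hB0
  by_cases hai : a = i
  · subst hai
    obtain ⟨a', ha'⟩ : ∃ a' : Fin k, a ≠ a' := by
      by_cases h0 : a.val = 0
      · exact ⟨⟨1, by omega⟩, fun h => by have := congrArg Fin.val h; simp at this; omega⟩
      · exact ⟨⟨0, by omega⟩, fun h => by have := congrArg Fin.val h; simp at this; omega⟩
    obtain ⟨B2, hB2, h2⟩ := h.move hσ hσ2 B1 hB1 a a' ha' ha 1 (map_one σ)
    exact h.move hσ hσ2 B2 hB2 a' a ha'.symm (by rw [h2]; exact one_ne_zero) c hc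
  · exact h.move hσ hσ2 B1 hB1 a i hai ha c hc

theorem Closed.exists_shape [Finite F] {Ω : Set (Matrix (Fin k) (Fin k) F)} (h : Closed σ Ω)
    (hσ : σ ≠ RingHom.id F) (hσ2 : ∀ a : F, σ (σ a) = a) (hk : 2 ≤ k)
    (B : Matrix (Fin k) (Fin k) F) (hB : B ∈ Ω) (hB0 : B ≠ 0) (i : Fin k)
    (c : F) (hc : σ c = c) (hc0 : c ≠ 0) (r : Fin k → F) :
    ∃ B' ∈ Ω, B' i i = c ∧ (∀ j, j < i → B' j j = 0) ∧ ∀ j, i < j → B' i j = r j := by
  classical
  obtain ⟨B1, hB1, h1⟩ := h.exists_entry hσ hσ2 hk B hB hB0 i c hc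
  have hsol : ∀ j : Fin k, ∃ τ : F, τ * σ τ * c + τ * B1 i j + σ τ * σ (B1 i j) + B1 j j = 0 :=
    fun j => nt_solve σ hσ hσ2 c (B1 j j) (B1 i j) hc0 hc (h.herm B1 hB1 j j)
  choose τ hτ using hsol
  set t : Fin k → F := fun j => if j < i then τ j else if i < j then σ ((r j - B1 i j) / c) else 0
    with ht
  have hti : t i = 0 := by simp [ht]
  refine ⟨op σ i t B1, h.cl B1 hB1 i t hti, ?_, ?_, ?_⟩
  · unfold op
    rw [hti, map_zero, h1]; ring
  · intro j hj
    unfold op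
    have : t j = τ j := by simp [ht, hj]
    rw [this, h1]
    have h2 := hτ j
    rw [h.herm B1 hB1 i j] at h2
    linear_combination h2
  · intro j hj
    unfold op
    have : t j = σ ((r j - B1 i j) / c) := by
      simp only [ht]
      rw [if_neg (not_lt.mpr hj.le), if_pos hj]
    rw [hti, this, hσ2, h1]
    field_simp
    ring

theorem exists_first (w : Fin k → F) (hw : w ≠ 0) :
    ∃ i, w i ≠ 0 ∧ ∀ j, j < i → w j = 0 := by
  classical
  have hne : (Finset.univ.filter (fun i => w i ≠ 0)).Nonempty := by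
    by_contra hcon
    rw [Finset.not_nonempty_iff_eq_empty] at hcon
    apply hw
    ext i
    by_contra hi
    have : i ∈ Finset.univ.filter (fun i => w i ≠ 0) := by
      rw [Finset.mem_filter]; exact ⟨Finset.mem_univ _, hi⟩
    rw [hcon] at this
    simp at this
  refine ⟨(Finset.univ.filter (fun i => w i ≠ 0)).min' hne, ?_, ?_⟩
  · have := Finset.min'_mem _ hne
    simpa using this
  · intro j hj
    by_contra hj0
    have : j ∈ Finset.univ.filter (fun i => w i ≠ 0) := by simp [hj0]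
    exact absurd (Finset.min'_le _ j this) (not_le.mpr hj)

theorem card_roots_le [Fintype F] [DecidableEq F] (q : ℕ) :
    (Finset.univ.filter (fun z : F => z ^ (q + 1) = 1)).card ≤ q + 1 := by
  have h1 : Finset.univ.filter (fun z : F => z ^ (q + 1) = 1) ⊆
      (Polynomial.nthRoots (q + 1) (1 : F)).toFinset := by
    intro z hz
    rw [Multiset.mem_toFinset, Polynomial.mem_nthRoots (Nat.succ_pos q)]
    simpa using hz
  calc _ ≤ (Polynomial.nthRoots (q + 1) (1 : F)).toFinset.card := Finset.card_le_card h1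
    _ ≤ Multiset.card (Polynomial.nthRoots (q + 1) (1 : F)) := Multiset.toFinset_card_le _
    _ ≤ q + 1 := Polynomial.card_nthRoots _ _

/-- a nonzero congruence-closed set of hermitian matrices has at least as many elements as there
are hermitian matrices of rank one -/
theorem Closed.card_bound [Fintype F] [DecidableEq F] {q : ℕ} (hF : Fintype.card F = q ^ 2)
    (hσq : ∀ x, σ x = x ^ q) {Ω : Set (Matrix (Fin k) (Fin k) F)} (h : Closed σ Ω)
    (hσ : σ ≠ RingHom.id F) (hσ2 : ∀ a : F, σ (σ a) = a) (hk : 2 ≤ k)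
    (B : Matrix (Fin k) (Fin k) F) (hB : B ∈ Ω) (hB0 : B ≠ 0)
    (S : Finset (Matrix (Fin k) (Fin k) F)) (hS : ∀ B, B ∈ Ω → B ≠ 0 → B ∈ S) :
    q ^ (2 * k) - 1 ≤ (q + 1) * S.card := by
  classical
  have hσ0 : ∀ x : F, x ≠ 0 → σ x ≠ 0 := fun x hx => by
    rw [Ne, map_eq_zero]; exact hx
  have key : ∀ w : Fin k → F, ∃ B' : Matrix (Fin k) (Fin k) F, w ≠ 0 → (B' ∈ Ω ∧ ∃ i, w i ≠ 0 ∧
      (∀ j, j < i → w j = 0) ∧ B' i i = w i * σ (w i) ∧ (∀ j, j < i → B' j j = 0) ∧
      ∀ j, i < j → B' i j = σ (w i) * w j) := by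
    intro w
    by_cases hw : w = 0
    · exact ⟨0, fun h => absurd hw h⟩
    obtain ⟨i, hi, hlt⟩ := exists_first w hw
    obtain ⟨B', hB', h1, h2, h3⟩ := h.exists_shape hσ hσ2 hk B hB hB0 i (w i * σ (w i))
      (by rw [map_mul, hσ2, mul_comm]) (mul_ne_zero hi (hσ0 _ hi)) (fun j => σ (w i) * w j)
    exact ⟨B', fun _ => ⟨hB', i, hi, hlt, h1, h2, h3⟩⟩
  choose f hf using key
  set W : Finset (Fin k → F) := Finset.univ.filter (fun w => w ≠ 0) with hW
  have hcardW : W.card = q ^ (2 * k) - 1 := by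
    rw [hW, Finset.filter_ne', Finset.card_erase_of_mem (Finset.mem_univ _), Finset.card_univ,
      Fintype.card_fun, hF, Fintype.card_fin, ← pow_mul]
  have himg : W.image f ⊆ S := by
    intro b hb
    rw [Finset.mem_image] at hb
    obtain ⟨w, hw, rfl⟩ := hb
    have hw0 : w ≠ 0 := by simpa [hW] using hw
    obtain ⟨h1, i, hi, -, h2, -, -⟩ := hf w hw0
    apply hS _ h1
    intro h0
    rw [h0] at h2
    exact mul_ne_zero hi (hσ0 _ hi) h2.symm
  rw [← hcardW]
  refine (Finset.card_le_mul_card_image W (q + 1) ?_).trans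
    (Nat.mul_le_mul_left _ (Finset.card_le_card himg))
  intro b hb
  rw [Finset.mem_image] at hb
  obtain ⟨w0, hw0, rfl⟩ := hb
  have hw00 : w0 ≠ 0 := by simpa [hW] using hw0
  refine le_trans (Finset.card_le_card (t := (Finset.univ.filter
    (fun z : F => z ^ (q + 1) = 1)).image (fun z => z • w0)) ?_)
    (Finset.card_image_le.trans (card_roots_le q))
  intro x hx
  rw [Finset.mem_filter] at hx
  obtain ⟨hxW, hxf⟩ := hx
  have hx0 : x ≠ 0 := by simpa [hW] using hxW
  obtain ⟨-, i, hi, hlt, h1, h2, h3⟩ := hf x hx0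
  obtain ⟨-, i0, hi0, hlt0, h10, h20, h30⟩ := hf w0 hw00
  rw [hxf] at h1 h2 h3
  have hii : i = i0 := by
    rcases lt_trichotomy i i0 with hl | hl | hl
    · exfalso
      rw [h20 i hl] at h1
      exact mul_ne_zero hi (hσ0 _ hi) h1.symm
    · exact hl
    · exfalso
      rw [h2 i0 hl] at h10
      exact mul_ne_zero hi0 (hσ0 _ hi0) h10.symm
  subst hii
  rw [Finset.mem_image]
  have hN : x i * σ (x i) = w0 i * σ (w0 i) := by rw [← h1, h10]
  have hs0 := hσ0 _ hi0
  have hsx := hσ0 _ hi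
  refine ⟨x i / w0 i, ?_, ?_⟩
  · rw [Finset.mem_filter]
    refine ⟨Finset.mem_univ _, ?_⟩
    rw [pow_succ', ← hσq, map_div₀]
    field_simp
    exact hN
  · ext j
    rw [Pi.smul_apply, smul_eq_mul]
    rcases lt_trichotomy j i with hl | hl | hl
    · rw [hlt j hl, hlt0 j hl, mul_zero]
    · subst hl; field_simp
    · have h4 : σ (x i) * x j = σ (w0 i) * w0 j := by rw [← h3 j hl, h30 j hl]
      field_simp
      have : σ (x i) * (x i * w0 j) = σ (x i) * (w0 i * x j) := by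
        linear_combination w0 j * hN - w0 i * h4
      exact mul_left_cancel₀ hsx this

end Cfsg.Agent.Lib.Helper44HermOrb
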