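import Mathlib
import Cfsg.Prelude.Def_Classical
import Cfsg.Agent.Lib.Helper44LawNC

set_option autoImplicit false

namespace Cfsg.Agent.Lib.Helper44LawEmb

open Matrix Cfsg.Agent.Lib.Helper44LawNC

variable {F : Type*} [Field F] {H : Type*} [Group H]

/-- `h ↦ diag(ρ h, (ρ h)⁻ᵀ)` -/
def dbl {l : Type*} [Fintype l] [DecidableEq l] (ρ : H →* Matrix l l F) :
    H →* Matrix (l ⊕ l) (l ⊕ l) F where
  toFun h := Matrix.fromBlocks (ρ h) 0 0 (ρ h⁻¹)ᵀ
  map_one' := by simp [Matrix.fromBlocks_one]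
  map_mul' x y := by
    rw [Matrix.fromBlocks_multiply]
    simp [Matrix.transpose_mul]

theorem dbl_injective {l : Type*} [Fintype l] [DecidableEq l] (ρ : H →* Matrix l l F)
    (hρ : Function.Injective ρ) : Function.Injective (dbl ρ) := by
  intro x y h
  apply hρ
  exact (Matrix.fromBlocks_inj.mp h).1

def addLeft {a : Type*} [Fintype a] [DecidableEq a] (b : Type*) [Fintype b] [DecidableEq b]
    (σ : H →* Matrix a a F) : H →* Matrix (b ⊕ a) (b ⊕ a) F where
  toFun h := Matrix.fromBlocks 1 0 0 (σ h)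
  map_one' := by simp [Matrix.fromBlocks_one]
  map_mul' x y := by
    rw [Matrix.fromBlocks_multiply]
    simp

def addRight {a : Type*} [Fintype a] [DecidableEq a] (b : Type*) [Fintype b] [DecidableEq b]
    (σ : H →* Matrix a a F) : H →* Matrix (a ⊕ b) (a ⊕ b) F where
  toFun h := Matrix.fromBlocks (σ h) 0 0 1
  map_one' := by simp [Matrix.fromBlocks_one]
  map_mul' x y := by
    rw [Matrix.fromBlocks_multiply]
    simp

theorem addLeft_injective {a : Type*} [Fintype a] [DecidableEq a] (b : Type*) [Fintype b]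
    [DecidableEq b] (σ : H →* Matrix a a F) (hσ : Function.Injective σ) :
    Function.Injective (addLeft b σ) := by
  intro x y h
  apply hσ
  exact (Matrix.fromBlocks_inj.mp h).2.2.2

theorem addRight_injective {a : Type*} [Fintype a] [DecidableEq a] (b : Type*) [Fintype b]
    [DecidableEq b] (σ : H →* Matrix a a F) (hσ : Function.Injective σ) :
    Function.Injective (addRight b σ) := by
  intro x y h
  apply hσ
  exact (Matrix.fromBlocks_inj.mp h).1

theorem toHomUnits_injective {M : Type*} [Monoid M] (f : H →* M) (hf : Function.Injective f) :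
    Function.Injective f.toHomUnits := by
  intro x y h
  apply hf
  have := congrArg Units.val h
  simpa using this

theorem NC_SL {α : Type*} {w : FreeGroup α} {m : ℕ} (hNC : NC w H)
    (hperf : _root_.commutator H = ⊤) (ρ : H →* Matrix (Fin m) (Fin m) F)
    (hρ : Function.Injective ρ) : NC w (Matrix.SpecialLinearGroup (Fin m) F) := by
  have hdet : ∀ h, (ρ h).det = 1 := fun h =>
    perfect_hom_trivial hperf (Matrix.detMonoidHom.comp ρ) h
  let ψ : H →* Matrix.SpecialLinearGroup (Fin m) F :=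
    { toFun := fun h => ⟨ρ h, hdet h⟩
      map_one' := by apply Subtype.ext; simp
      map_mul' := fun x y => by
        apply Subtype.ext
        show ρ (x * y) = ρ x * ρ y
        exact map_mul ρ x y }
  refine hNC.of_injective ψ ?_
  intro x y h
  apply hρ
  exact congrArg Subtype.val h

theorem NC_Sp {α : Type*} {w : FreeGroup α} {m : ℕ} (hNC : NC w H)
    (ρ : H →* Matrix (Fin m) (Fin m) F)
    (hρ : Function.Injective ρ) : NC w (Matrix.symplecticGroup (Fin m) F) := by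
  have hmem : ∀ h, dbl ρ h ∈ Matrix.symplecticGroup (Fin m) F := by
    intro h
    show Matrix.fromBlocks (ρ h) 0 0 (ρ h⁻¹)ᵀ ∈ _
    rw [SymplecticGroup.fromBlocks_mem_iff]
    refine ⟨by simp, by simp, ?_⟩
    rw [← Matrix.transpose_mul, ← map_mul]
    simp
  let ψ : H →* Matrix.symplecticGroup (Fin m) F := (dbl ρ).codRestrict _ hmem
  refine hNC.of_injective ψ ?_
  intro x y h
  apply dbl_injective ρ hρ
  exact congrArg Subtype.val h

theorem dot_invariant {l : Type*} [Fintype l] [DecidableEq l] (ρ : H →* Matrix l l F) (h : H)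
    (x y : l → F) : (ρ h *ᵥ x) ⬝ᵥ ((ρ h⁻¹)ᵀ *ᵥ y) = x ⬝ᵥ y := by
  rw [Matrix.mulVec_transpose, dotProduct_comm, ← Matrix.dotProduct_mulVec, Matrix.mulVec_mulVec,
    ← map_mul]
  simp [dotProduct_comm]

theorem quadFormPlus_eq (m : ℕ) (v : Fin m ⊕ Fin m → F) :
    Cfsg.quadFormPlus m F v = (v ∘ Sum.inl) ⬝ᵥ (v ∘ Sum.inr) := rfl

theorem quadFormPlus_invariant {m : ℕ} (ρ : H →* Matrix (Fin m) (Fin m) F) (h : H)
    (v : Fin m ⊕ Fin m → F) :
    Cfsg.quadFormPlus m F (dbl ρ h *ᵥ v) = Cfsg.quadFormPlus m F v := by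
  rw [quadFormPlus_eq, quadFormPlus_eq]
  show ((Matrix.fromBlocks (ρ h) 0 0 (ρ h⁻¹)ᵀ *ᵥ v) ∘ Sum.inl) ⬝ᵥ
    ((Matrix.fromBlocks (ρ h) 0 0 (ρ h⁻¹)ᵀ *ᵥ v) ∘ Sum.inr) = _
  rw [Matrix.fromBlocks_mulVec]
  simp only [Sum.elim_comp_inl, Sum.elim_comp_inr, Matrix.zero_mulVec, add_zero, zero_add]
  exact dot_invariant ρ h _ _

/-- general principle for the orthogonal families -/
theorem NC_Omega {α : Type*} {w : FreeGroup α} {ι : Type} [Fintype ι] [DecidableEq ι]
    (Q : (ι → F) → F) (hNC : NC w H) (hperf : _root_.commutator H = ⊤)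
    (σ : H →* Matrix ι ι F) (hσ : Function.Injective σ)
    (hQ : ∀ h v, Q (σ h *ᵥ v) = Q v) : NC w ↥(Cfsg.Omega F Q) := by
  have hmem : ∀ h, σ.toHomUnits h ∈ Cfsg.isometryGroup F Q := by
    intro h u _
    exact hQ h u
  let ψ : H →* ↥(Cfsg.isometryGroup F Q) := σ.toHomUnits.codRestrict _ hmem
  refine hNC.commutator hperf ψ ?_
  intro x y h
  apply toHomUnits_injective σ hσ
  exact congrArg Subtype.val h

theorem NC_OmegaPlus {α : Type*} {w : FreeGroup α} {m : ℕ} (hNC : NC w H)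
    (hperf : _root_.commutator H = ⊤) (ρ : H →* Matrix (Fin m) (Fin m) F)
    (hρ : Function.Injective ρ) : NC w ↥(Cfsg.Omega F (Cfsg.quadFormPlus m F)) :=
  NC_Omega _ hNC hperf (dbl ρ) (dbl_injective ρ hρ) (quadFormPlus_invariant ρ)

theorem NC_OmegaOdd {α : Type*} {w : FreeGroup α} {m : ℕ} (hNC : NC w H)
    (hperf : _root_.commutator H = ⊤) (ρ : H →* Matrix (Fin m) (Fin m) F)
    (hρ : Function.Injective ρ) : NC w ↥(Cfsg.Omega F (Cfsg.quadFormOdd m F)) := by
  refine NC_Omega _ hNC hperf (addLeft Unit (dbl ρ)) (addLeft_injective _ _ (dbl_injective ρ hρ)) ?_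
  intro h v
  have h1 : ∀ v : Unit ⊕ (Fin m ⊕ Fin m) → F, Cfsg.quadFormOdd m F v =
      v (.inl ()) ^ 2 + Cfsg.quadFormPlus m F (v ∘ Sum.inr) := fun v => rfl
  rw [h1, h1]
  show (Matrix.fromBlocks 1 0 0 (dbl ρ h) *ᵥ v) (.inl ()) ^ 2 +
    Cfsg.quadFormPlus m F ((Matrix.fromBlocks 1 0 0 (dbl ρ h) *ᵥ v) ∘ Sum.inr) = _
  rw [Matrix.fromBlocks_mulVec]
  simp only [Sum.elim_comp_inr, Sum.elim_inl, Matrix.zero_mulVec, add_zero, zero_add,
    Matrix.one_mulVec, quadFormPlus_invariant]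
  rfl

theorem NC_OmegaMinus {α : Type*} {w : FreeGroup α} {m : ℕ} (a b : F) (hNC : NC w H)
    (hperf : _root_.commutator H = ⊤) (ρ : H →* Matrix (Fin m) (Fin m) F)
    (hρ : Function.Injective ρ) : NC w ↥(Cfsg.Omega F (Cfsg.quadFormMinus m F a b)) := by
  refine NC_Omega _ hNC hperf (addRight (Fin 2) (dbl ρ))
    (addRight_injective _ _ (dbl_injective ρ hρ)) ?_
  intro h v
  have h1 : ∀ v : (Fin m ⊕ Fin m) ⊕ Fin 2 → F, Cfsg.quadFormMinus m F a b v =
      Cfsg.quadFormPlus m F (v ∘ Sum.inl) +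
        (v (.inr 0) ^ 2 + a * v (.inr 0) * v (.inr 1) + b * v (.inr 1) ^ 2) := fun v => rfl
  rw [h1, h1]
  show Cfsg.quadFormPlus m F ((Matrix.fromBlocks (dbl ρ h) 0 0 1 *ᵥ v) ∘ Sum.inl) +
    ((Matrix.fromBlocks (dbl ρ h) 0 0 1 *ᵥ v) (.inr 0) ^ 2 +
      a * (Matrix.fromBlocks (dbl ρ h) 0 0 1 *ᵥ v) (.inr 0) *
        (Matrix.fromBlocks (dbl ρ h) 0 0 1 *ᵥ v) (.inr 1) +
      b * (Matrix.fromBlocks (dbl ρ h) 0 0 1 *ᵥ v) (.inr 1) ^ 2) = _
  rw [Matrix.fromBlocks_mulVec]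
  simp only [Sum.elim_comp_inl, Sum.elim_inr, Matrix.zero_mulVec, add_zero, zero_add,
    Matrix.one_mulVec, quadFormPlus_invariant]
  rfl

end Cfsg.Agent.Lib.Helper44LawEmb
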