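import Mathlib
import Cfsg.Prelude.Def_Classical
import Cfsg.Agent.Lib.Helper44LawNC

set_option autoImplicit false

namespace Cfsg.Agent.Lib.Helper44LawEmb2

open Matrix Cfsg.Agent.Lib.Helper44LawNC

variable {F : Type*} [Field F]

def blockEquiv (m : ℕ) (hm : 2 ≤ m) : Fin 2 ⊕ Fin (m - 2) ≃ Fin m :=
  finSumFinEquiv.trans (finCongr (by omega))

def blockHom (m : ℕ) (hm : 2 ≤ m) : Matrix (Fin 2) (Fin 2) F →* Matrix (Fin m) (Fin m) F where
  toFun A := (Matrix.fromBlocks A 0 0 1).submatrix (blockEquiv m hm).symm (blockEquiv m hm).symm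
  map_one' := by simp [Matrix.fromBlocks_one]
  map_mul' A B := by
    rw [Matrix.submatrix_mul_equiv, Matrix.fromBlocks_multiply]
    simp

theorem blockHom_injective (m : ℕ) (hm : 2 ≤ m) :
    Function.Injective (blockHom (F := F) m hm) := by
  intro A B h
  have h1 : Matrix.fromBlocks A 0 0 (1 : Matrix (Fin (m - 2)) (Fin (m - 2)) F) =
      Matrix.fromBlocks B 0 0 1 := by
    ext i j
    have := congrFun (congrFun h (blockEquiv m hm i)) (blockEquiv m hm j)
    simpa [blockHom] using this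
  exact (Matrix.fromBlocks_inj.mp h1).1

theorem blockHom_det (m : ℕ) (hm : 2 ≤ m) (A : Matrix (Fin 2) (Fin 2) F) :
    (blockHom m hm A).det = A.det := by
  show ((Matrix.fromBlocks A 0 0 1).submatrix (blockEquiv m hm).symm (blockEquiv m hm).symm).det = _
  rw [Matrix.det_submatrix_equiv_self, Matrix.det_fromBlocks_zero₂₁]
  simp

theorem herm_split (m q : ℕ) (hm : 2 ≤ m) (x y : Fin m → F) :
    Cfsg.hermForm m F q x y =
      Cfsg.hermForm 2 F q (x ∘ blockEquiv m hm ∘ Sum.inl) (y ∘ blockEquiv m hm ∘ Sum.inl) +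
      ∑ i : Fin (m - 2), x (blockEquiv m hm (Sum.inr i)) * (y (blockEquiv m hm (Sum.inr i))) ^ q := by
  unfold Cfsg.hermForm
  rw [← Equiv.sum_comp (blockEquiv m hm), Fintype.sum_sum_type]
  rfl

theorem blockHom_herm (m q : ℕ) (hm : 2 ≤ m) (A : Matrix (Fin 2) (Fin 2) F)
    (hA : ∀ u v, Cfsg.hermForm 2 F q (A *ᵥ u) (A *ᵥ v) = Cfsg.hermForm 2 F q u v)
    (u v : Fin m → F) :
    Cfsg.hermForm m F q (blockHom m hm A *ᵥ u) (blockHom m hm A *ᵥ v) = Cfsg.hermForm m F q u v := by
  have key : ∀ u : Fin m → F, blockHom m hm A *ᵥ u =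
      (Sum.elim (A *ᵥ (u ∘ blockEquiv m hm ∘ Sum.inl)) (u ∘ blockEquiv m hm ∘ Sum.inr)) ∘
        (blockEquiv m hm).symm := by
    intro u
    show ((Matrix.fromBlocks A 0 0 1).submatrix (blockEquiv m hm).symm (blockEquiv m hm).symm) *ᵥ u = _
    rw [Matrix.submatrix_mulVec_equiv, Matrix.fromBlocks_mulVec]
    simp [Function.comp_assoc]
  rw [herm_split m q hm, herm_split m q hm u v, key u, key v]
  have e1 : ∀ u : Fin m → F, ((Sum.elim (A *ᵥ (u ∘ blockEquiv m hm ∘ Sum.inl))
      (u ∘ blockEquiv m hm ∘ Sum.inr)) ∘ (blockEquiv m hm).symm) ∘ blockEquiv m hm ∘ Sum.inl =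
      A *ᵥ (u ∘ blockEquiv m hm ∘ Sum.inl) := by
    intro u; funext i; simp
  rw [e1, e1, hA]
  simp

/-- block embedding of `SU 2` in `SU n` -/
theorem exists_SU_block (n q : ℕ) (hn : 2 ≤ n) :
    ∃ ψ : ↥(Cfsg.SU 2 F q) →* ↥(Cfsg.SU n F q), Function.Injective ψ := by
  let ψ0 : ↥(Cfsg.SU 2 F q) →* Matrix.SpecialLinearGroup (Fin n) F :=
    { toFun := fun x => ⟨blockHom n hn (x.1.1), by rw [blockHom_det]; exact x.1.2⟩
      map_one' := by
        apply Subtype.ext
        show blockHom n hn (1 : Matrix (Fin 2) (Fin 2) F) = 1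
        exact map_one _
      map_mul' := fun x y => by
        apply Subtype.ext
        show blockHom n hn (x.1.1 * y.1.1) = blockHom n hn x.1.1 * blockHom n hn y.1.1
        exact map_mul _ _ _ }
  have hmem : ∀ x, ψ0 x ∈ Cfsg.SU n F q := by
    intro x u v
    exact blockHom_herm n q hn x.1.1 x.2 u v
  refine ⟨ψ0.codRestrict _ hmem, ?_⟩
  intro x y h
  have h1 : blockHom n hn x.1.1 = blockHom n hn y.1.1 :=
    congrArg (fun z : ↥(Cfsg.SU n F q) => z.1.1) h
  exact Subtype.ext (Subtype.ext (blockHom_injective n hn h1))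

theorem permMatrixHom_injective (n : ℕ) :
    Function.Injective (Matrix.permMatrixHom (n := Fin n) (R := F)) := by
  intro σ τ h
  have h1 : σ⁻¹ = τ⁻¹ := by
    ext i
    have h2 : (σ⁻¹).permMatrix F *ᵥ (Pi.single (σ⁻¹ i) 1) = (τ⁻¹).permMatrix F *ᵥ (Pi.single (σ⁻¹ i) 1) := by
      have : (σ⁻¹).permMatrix F = (τ⁻¹).permMatrix F := h
      rw [this]
    rw [Matrix.permMatrix_mulVec, Matrix.permMatrix_mulVec] at h2
    have h3 := congrFun h2 i
    simp only [Function.comp_apply, Pi.single_eq_same] at h3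
    by_contra hne
    rw [Pi.single_eq_of_ne (fun h => hne (congrArg Fin.val h.symm))] at h3
    exact one_ne_zero h3
  exact inv_injective h1

/-- even permutation matrices in `SU n` -/
theorem exists_SU_perm (n q : ℕ) :
    ∃ ψ : alternatingGroup (Fin n) →* ↥(Cfsg.SU n F q), Function.Injective ψ := by
  let ψ0 : alternatingGroup (Fin n) →* Matrix.SpecialLinearGroup (Fin n) F :=
    { toFun := fun x => ⟨Matrix.permMatrixHom (R := F) x.1, by
        show ((x.1)⁻¹.permMatrix F).det = 1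
        rw [Matrix.det_permutation, Equiv.Perm.sign_inv, Equiv.Perm.mem_alternatingGroup.mp x.2]
        simp⟩
      map_one' := by
        apply Subtype.ext
        show Matrix.permMatrixHom (R := F) (1 : Equiv.Perm (Fin n)) = 1
        exact map_one _
      map_mul' := fun x y => by
        apply Subtype.ext
        show Matrix.permMatrixHom (R := F) (x.1 * y.1) =
          Matrix.permMatrixHom (R := F) x.1 * Matrix.permMatrixHom (R := F) y.1
        exact map_mul _ _ _ }
  have hmem : ∀ x, ψ0 x ∈ Cfsg.SU n F q := by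
    intro x u v
    show Cfsg.hermForm n F q ((x.1)⁻¹.permMatrix F *ᵥ u) ((x.1)⁻¹.permMatrix F *ᵥ v) = _
    rw [Matrix.permMatrix_mulVec, Matrix.permMatrix_mulVec]
    unfold Cfsg.hermForm
    exact Equiv.sum_comp (x.1)⁻¹ (fun i => u i * v i ^ q)
  refine ⟨ψ0.codRestrict _ hmem, ?_⟩
  intro x y h
  have h1 : Matrix.permMatrixHom (R := F) x.1 = Matrix.permMatrixHom (R := F) y.1 :=
    congrArg (fun z : ↥(Cfsg.SU n F q) => z.1.1) h
  exact Subtype.ext (permMatrixHom_injective n h1)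

end Cfsg.Agent.Lib.Helper44LawEmb2
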