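import Mathlib

set_option autoImplicit false

namespace Cfsg.Agent.Lib.Helper44LawG

open Polynomial Matrix

variable {F : Type*} [Field F] {n : Type*} [Fintype n] [DecidableEq n] {α : Type*}

/-- coordinates (in the eigenbasis of the first letter) of the `c`-th column of the word matrix -/
noncomputable def yvec (P P' : α → Matrix n n F) (e : Bool → n → ℕ) (c : n) :
    α × Bool → List (α × Bool) → (n → F[X])
  | x, [] => fun i => X ^ (e x.2 i) * C (P' x.1 i c)
  | x, (y :: L) => fun i => X ^ (e x.2 i) * ∑ j, C ((P' x.1 * P y.1) i j) * yvec P P' e c y L j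

theorem yvec_top (P P' : α → Matrix n n F) (e : Bool → n → ℕ) (c : n) (idx : Bool → n) (N : ℕ)
    (S : Set α)
    (he_lt : ∀ b i, i ≠ idx b → e b i < N) (he_eq : ∀ b, e b (idx b) = N)
    (hc : ∀ k ∈ S, ∀ b, P' k (idx b) c ≠ 0)
    (hPP : ∀ k ∈ S, ∀ l ∈ S, ∀ b b', (k = l → b = b') → (P' k * P l) (idx b) (idx b') ≠ 0)
    (L : List (α × Bool)) : ∀ (x : α × Bool), FreeGroup.IsReduced (x :: L) →
      (∀ y ∈ x :: L, y.1 ∈ S) →
      (∀ i, (yvec P P' e c x L i).natDegree ≤ N * (L.length + 1)) ∧
      (∀ i, i ≠ idx x.2 → (yvec P P' e c x L i).coeff (N * (L.length + 1)) = 0) ∧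
      (yvec P P' e c x L (idx x.2)).coeff (N * (L.length + 1)) ≠ 0 := by
  have he_le : ∀ b i, e b i ≤ N := by
    intro b i
    by_cases h : i = idx b
    · rw [h, he_eq]
    · exact (he_lt b i h).le
  induction L with
  | nil =>
    intro x _ hS
    have hx : x.1 ∈ S := hS x (by simp)
    refine ⟨?_, ?_, ?_⟩
    · intro i
      simp only [yvec, List.length_nil, zero_add, mul_one]
      refine (natDegree_mul_C_le _ _).trans ?_
      rw [natDegree_X_pow]
      exact he_le _ _
    · intro i hi
      simp only [yvec, List.length_nil, zero_add, mul_one]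
      rw [coeff_mul_C, coeff_X_pow, if_neg (he_lt _ _ hi).ne', zero_mul]
    · simp only [yvec, List.length_nil, zero_add, mul_one]
      rw [coeff_mul_C, coeff_X_pow, if_pos (he_eq _).symm, one_mul]
      exact hc _ hx _
  | cons y L ih =>
    intro x hred hS
    rw [FreeGroup.isReduced_cons_cons] at hred
    obtain ⟨hxy, hred'⟩ := hred
    have hx : x.1 ∈ S := hS x (by simp)
    have hy : y.1 ∈ S := hS y (by simp)
    obtain ⟨ih1, ih2, ih3⟩ := ih y hred' (fun z hz => hS z (List.mem_cons_of_mem _ hz))
    set M := N * (L.length + 1) with hM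
    have hlen : N * ((y :: L).length + 1) = N + M := by
      simp only [List.length_cons, hM]; ring
    have hsumdeg : ∀ i, (∑ j, C ((P' x.1 * P y.1) i j) * yvec P P' e c y L j).natDegree ≤ M := by
      intro i
      refine natDegree_sum_le_of_forall_le _ _ ?_
      intro j _
      exact (natDegree_C_mul_le _ _).trans (ih1 j)
    have hsumcoeff : ∀ i, (∑ j, C ((P' x.1 * P y.1) i j) * yvec P P' e c y L j).coeff M
        = (P' x.1 * P y.1) i (idx y.2) * (yvec P P' e c y L (idx y.2)).coeff M := by
      intro i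
      rw [finsetSum_coeff, Finset.sum_eq_single (idx y.2)]
      · rw [coeff_C_mul]
      · intro j _ hj
        rw [coeff_C_mul, ih2 j hj, mul_zero]
      · intro h; exact absurd (Finset.mem_univ _) h
    rw [hlen]
    refine ⟨?_, ?_, ?_⟩
    · intro i
      simp only [yvec]
      refine natDegree_mul_le.trans ?_
      rw [natDegree_X_pow]
      exact add_le_add (he_le _ _) (hsumdeg i)
    · intro i hi
      simp only [yvec]
      apply coeff_eq_zero_of_natDegree_lt
      refine lt_of_le_of_lt natDegree_mul_le ?_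
      rw [natDegree_X_pow]
      exact add_lt_add_of_lt_of_le (he_lt _ _ hi) (hsumdeg i)
    · simp only [yvec]
      rw [he_eq, coeff_X_pow_mul', if_pos (Nat.le_add_right _ _), Nat.add_sub_cancel_left,
        hsumcoeff]
      exact mul_ne_zero (hPP _ hx _ hy _ _ hxy) ih3


/-- the matrix attached to a letter -/
def letterMat (P P' : α → Matrix n n F) (δ : Bool → n → F) (x : α × Bool) : Matrix n n F :=
  P x.1 * Matrix.diagonal (δ x.2) * P' x.1

theorem yvec_eval (P P' : α → Matrix n n F) (e : Bool → n → ℕ) (c : n) (d : ℕ) (t : F)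
    (δ : Bool → n → F) (hδ : ∀ b i, t ^ (e b i) = t ^ d * δ b i)
    (L : List (α × Bool)) : ∀ (x : α × Bool) (a : n),
      ∑ i, P x.1 a i * (yvec P P' e c x L i).eval t =
        t ^ (d * (L.length + 1)) * (((x :: L).map (letterMat P P' δ)).prod a c) := by
  induction L with
  | nil =>
    intro x a
    simp only [yvec, List.length_nil, zero_add, mul_one, List.map_cons, List.map_nil,
      List.prod_cons, List.prod_nil, letterMat, eval_mul, eval_pow, eval_X, eval_C]
    rw [Matrix.mul_apply, Finset.mul_sum]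
    refine Finset.sum_congr rfl ?_
    intro i _
    rw [Matrix.mul_diagonal, hδ]
    ring
  | cons y L ih =>
    intro x a
    have hprod : (((x :: y :: L).map (letterMat P P' δ)).prod a c) =
        ∑ i, P x.1 a i * δ x.2 i * ∑ a', P' x.1 i a' * (((y :: L).map (letterMat P P' δ)).prod a' c) := by
      rw [List.map_cons, List.prod_cons, letterMat, Matrix.mul_assoc, Matrix.mul_apply]
      refine Finset.sum_congr rfl ?_
      intro i _
      rw [Matrix.mul_diagonal, Matrix.mul_apply]
    rw [hprod, Finset.mul_sum]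
    refine Finset.sum_congr rfl ?_
    intro i _
    have h1 : (yvec P P' e c x (y :: L) i).eval t =
        t ^ (e x.2 i) * ∑ a', P' x.1 i a' * ∑ j, P y.1 a' j * (yvec P P' e c y L j).eval t := by
      simp only [yvec, eval_mul, eval_pow, eval_X, eval_finsetSum, eval_C]
      congr 1
      simp only [Matrix.mul_apply, Finset.sum_mul, Finset.mul_sum]
      rw [Finset.sum_comm]
      refine Finset.sum_congr rfl ?_
      intro a' _
      refine Finset.sum_congr rfl ?_
      intro j _
      ring
    rw [h1, hδ]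
    simp only [ih y]
    simp only [Finset.mul_sum]
    refine Finset.sum_congr rfl ?_
    intro a' _
    simp only [List.length_cons]
    ring

/-- Main abstract statement: some specialisation of the parameter gives a non-zero `(a,c)` entry. -/
theorem exists_entry_ne_zero [Fintype F] [DecidableEq F]
    (P P' : α → Matrix n n F) (e : Bool → n → ℕ) (a c : n) (idx : Bool → n) (N d : ℕ)
    (S : Set α) (δ : F → Bool → n → F)
    (hδ : ∀ t : F, t ≠ 0 → ∀ b i, t ^ (e b i) = t ^ d * δ t b i)
    (he_lt : ∀ b i, i ≠ idx b → e b i < N) (he_eq : ∀ b, e b (idx b) = N)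
    (ha : ∀ k ∈ S, ∀ b, P k a (idx b) ≠ 0)
    (hc : ∀ k ∈ S, ∀ b, P' k (idx b) c ≠ 0)
    (hPP : ∀ k ∈ S, ∀ l ∈ S, ∀ b b', (k = l → b = b') → (P' k * P l) (idx b) (idx b') ≠ 0)
    (L : List (α × Bool)) (hL : L ≠ []) (hred : FreeGroup.IsReduced L)
    (hS : ∀ y ∈ L, y.1 ∈ S) (hcard : N * L.length + 1 < Fintype.card F) :
    ∃ t : F, t ≠ 0 ∧ ((L.map (letterMat P P' (δ t))).prod a c) ≠ 0 := by
  obtain ⟨x, L, rfl⟩ := List.exists_cons_of_ne_nil hL
  obtain ⟨h1, h2, h3⟩ := yvec_top P P' e c idx N S he_lt he_eq hc hPP L x hred hS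
  by_contra hcon
  push Not at hcon
  set p : F[X] := ∑ i, C (P x.1 a i) * yvec P P' e c x L i with hp
  have hdeg : p.natDegree ≤ N * (L.length + 1) := by
    refine natDegree_sum_le_of_forall_le _ _ ?_
    intro j _
    exact (natDegree_C_mul_le _ _).trans (h1 j)
  have hcoeff : p.coeff (N * (L.length + 1)) ≠ 0 := by
    rw [hp, finsetSum_coeff, Finset.sum_eq_single (idx x.2)]
    · rw [coeff_C_mul]
      exact mul_ne_zero (ha _ (hS x (by simp)) _) h3
    · intro j _ hj
      rw [coeff_C_mul, h2 j hj, mul_zero]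
    · intro h; exact absurd (Finset.mem_univ _) h
  have hp0 : p = 0 := by
    apply eq_zero_of_natDegree_lt_card_of_eval_eq_zero' p (Finset.univ.erase (0 : F))
    · intro t ht
      have ht0 : t ≠ 0 := (Finset.mem_erase.mp ht).1
      have := yvec_eval P P' e c d t (δ t) (hδ t ht0) L x a
      rw [hcon t ht0, mul_zero] at this
      rw [hp, eval_finsetSum]
      simpa [eval_mul, eval_C] using this
    · rw [Finset.card_erase_of_mem (Finset.mem_univ _), Finset.card_univ]
      simp only [List.length_cons] at hcard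
      omega
  rw [hp0] at hcoeff
  simp at hcoeff

/-- transport to a group mapping to matrices -/
theorem lift_eq_prod {Γ : Type*} [Group Γ] (φ : Γ →* Matrix n n F)
    (P P' : α → Matrix n n F) (δ : Bool → n → F) (g : α → Γ)
    (h1 : ∀ k, φ (g k) = letterMat P P' δ (k, true))
    (h2 : ∀ k, φ (g k)⁻¹ = letterMat P P' δ (k, false)) (L : List (α × Bool)) :
    φ (FreeGroup.lift g (FreeGroup.mk L)) = (L.map (letterMat P P' δ)).prod := by
  rw [FreeGroup.lift_mk, map_list_prod, List.map_map]
  congr 1
  apply List.map_congr_left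
  rintro ⟨k, b⟩ _
  cases b
  · simpa using h2 k
  · simpa using h1 k

end Cfsg.Agent.Lib.Helper44LawG
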