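import Mathlib
import Cfsg.Agent.Lib.Helper44Law
import Cfsg.Agent.Lib.Helper44LawSL2
import Cfsg.Agent.Lib.Helper44LawNC

set_option autoImplicit false

namespace Cfsg.Agent.Lib.Helper44LawTwoGen

open Matrix Cfsg.Agent.Lib.Helper44Law Cfsg.Agent.Lib.Helper44LawSL2 Cfsg.Agent.Lib.Helper44LawNC

theorem sl2_core {F : Type*} [Field F] [Fintype F] (u v : ℕ → F) (K : ℕ) (huv : ∀ k, u k ≠ v k)
    (h1 : ∀ k l, k < K → l < K → k ≠ l → u k ≠ u l ∧ v k ≠ v l ∧ u k ≠ v l)
    (L : List (ℕ × Bool)) (hLne : L ≠ []) (hred : FreeGroup.IsReduced L)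
    (hS : ∀ y ∈ L, y.1 < K) (hcard : 2 * L.length + 1 < Fintype.card F) :
    ∃ t : F, t ≠ 0 ∧ ∃ g : ℕ → Matrix.SpecialLinearGroup (Fin 2) F,
      (∀ k, (g k : Matrix (Fin 2) (Fin 2) F) = letterMat (Pm u v) (Pm' u v) (δ2 t) (k, true)) ∧
      ((FreeGroup.lift g (FreeGroup.mk L) : Matrix.SpecialLinearGroup (Fin 2) F) :
        Matrix (Fin 2) (Fin 2) F) 0 1 ≠ 0 := by
  classical
  obtain ⟨t, ht, hne⟩ := exists_entry_ne_zero (Pm u v) (Pm' u v) e2 0 1 idx2 2 1 {k | k < K} δ2
    (by
      intro t ht b i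
      cases b <;> fin_cases i <;> simp [e2, δ2, ht, pow_two])
    (by
      intro b i hi
      cases b <;> fin_cases i <;> simp_all [e2, idx2])
    (by
      intro b
      cases b <;> simp [e2, idx2])
    (by
      intro k _ b
      cases b <;> simp [Pm, idx2])
    (by
      intro k _ b
      have h' : v k - u k ≠ 0 := sub_ne_zero.mpr (huv k).symm
      cases b <;> simp [Pm', idx2, h'])
    (by
      intro k hk l hl b b' hbb
      simp only [Set.mem_ofPred_eq] at hk hl
      have h' : v k - u k ≠ 0 := sub_ne_zero.mpr (huv k).symm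
      by_cases hkl : k = l
      · subst hkl
        rw [Pm'_mul_self u v k (huv k), hbb rfl]
        simp
      · rw [Pm'_mul]
        obtain ⟨a1, a2, a3⟩ := h1 k l hk hl hkl
        obtain ⟨b1, b2, b3⟩ := h1 l k hl hk (Ne.symm hkl)
        have h1 : v k - u l ≠ 0 := sub_ne_zero.mpr b3.symm
        have h2 : v k - v l ≠ 0 := sub_ne_zero.mpr a2
        have h3 : u l - u k ≠ 0 := sub_ne_zero.mpr b1
        have h4 : v l - u k ≠ 0 := sub_ne_zero.mpr a3.symm
        cases b <;> cases b' <;> simp [idx2, h', h1, h2, h3, h4])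
    L hLne hred hS hcard
  refine ⟨t, ht, ?_⟩
  let g : ℕ → Matrix.SpecialLinearGroup (Fin 2) F := fun k =>
    ⟨letterMat (Pm u v) (Pm' u v) (δ2 t) (k, true), det_letter u v t ht _ (huv k)⟩
  refine ⟨g, fun k => rfl, ?_⟩
  let g' : ℕ → Matrix.SpecialLinearGroup (Fin 2) F := fun k =>
    ⟨letterMat (Pm u v) (Pm' u v) (δ2 t) (k, false), det_letter u v t ht _ (huv k)⟩
  have hinv : ∀ k, (g k)⁻¹ = g' k := by
    intro k
    apply inv_eq_of_mul_eq_one_right
    apply Subtype.ext
    exact letter_mul u v t ht k true (huv k)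
  have key := lift_eq_prod (coeHom2 (F := F)) (Pm u v) (Pm' u v) (δ2 t) g (fun k => rfl)
    (fun k => by rw [hinv k]; rfl) L
  have : ((FreeGroup.lift g (FreeGroup.mk L) : Matrix.SpecialLinearGroup (Fin 2) F) :
      Matrix (Fin 2) (Fin 2) F) = (List.map (letterMat (Pm u v) (Pm' u v) (δ2 t)) L).prod := key
  rw [this]
  exact hne

/-- Reduction to two generators. -/
theorem exists_two_gen (w : FreeGroup ℕ) (hw : w ≠ 1) :
    ∃ φ : ℕ → FreeGroup Bool, FreeGroup.lift φ w ≠ 1 := by
  classical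
  set L := w.toWord with hL
  have hLne : L ≠ [] := by
    rw [hL, Ne, FreeGroup.toWord_eq_nil_iff]; exact hw
  set K := (L.map Prod.fst).toFinset.sup id + 1 with hK
  obtain ⟨p, hpN, hp⟩ := Nat.exists_infinite_primes (2 * L.length + 2 * K + 2)
  haveI : Fact p.Prime := ⟨hp⟩
  have hS : ∀ y ∈ L, y.1 < K := by
    intro y hy
    have : y.1 ∈ (L.map Prod.fst).toFinset := by
      simp only [List.mem_toFinset, List.mem_map]
      exact ⟨y, hy, rfl⟩
    have := Finset.le_sup (f := id) this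
    simp only [id] at this
    omega
  let u : ℕ → ZMod p := fun k => (k : ZMod p)
  let v : ℕ → ZMod p := fun k => ((K + k : ℕ) : ZMod p)
  have hcast : ∀ i j : ℕ, i < p → j < p → ((i : ℕ) : ZMod p) = (j : ZMod p) → i = j := by
    intro i j hi hj h
    have := (ZMod.natCast_eq_natCast_iff' i j p).mp h
    rwa [Nat.mod_eq_of_lt hi, Nat.mod_eq_of_lt hj] at this
  have hK0 : ((K : ℕ) : ZMod p) ≠ 0 := by
    intro h
    have := hcast K 0 (by omega) (by omega) (by simpa using h)
    omega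
  have huv : ∀ k, u k ≠ v k := by
    intro k h
    apply hK0
    simp only [u, v, Nat.cast_add] at h
    linear_combination -h
  obtain ⟨t, ht, g, hg, hne⟩ := sl2_core u v K huv
    (by
      intro k l hk hl hkl
      refine ⟨fun h => hkl (hcast _ _ (by omega) (by omega) h),
        fun h => hkl ?_, fun h => ?_⟩
      · have := hcast _ _ (by omega) (by omega) h
        omega
      · have := hcast _ _ (by omega) (by omega) h
        omega)
    L hLne FreeGroup.isReduced_toWord hS (by rw [ZMod.card]; omega)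
  rw [hL, FreeGroup.mk_toWord] at hne
  let b : Matrix.SpecialLinearGroup (Fin 2) (ZMod p) := ⟨!![1, 0; 1, 1], by simp [Matrix.det_fin_two_of]⟩
  have hb : ∀ k : ℕ, ((b ^ k : Matrix.SpecialLinearGroup (Fin 2) (ZMod p)) :
      Matrix (Fin 2) (Fin 2) (ZMod p)) = !![1, 0; (k : ZMod p), 1] := by
    intro k
    induction k with
    | zero => simp [Matrix.one_fin_two]
    | succ k ih =>
      rw [pow_succ, Matrix.SpecialLinearGroup.coe_mul, ih]
      simp [b, Matrix.mul_fin_two]
  let φ : ℕ → FreeGroup Bool := fun k =>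
    (FreeGroup.of false) ^ k * FreeGroup.of true * ((FreeGroup.of false) ^ k)⁻¹
  let γ : Bool → Matrix.SpecialLinearGroup (Fin 2) (ZMod p) := fun c => cond c (g 0) b
  have hφ : ∀ k, FreeGroup.lift γ (φ k) = g k := by
    intro k
    simp only [φ, map_mul, map_pow, map_inv, FreeGroup.lift_apply_of, γ, cond_true, cond_false]
    rw [mul_inv_eq_iff_eq_mul]
    apply Subtype.ext
    rw [Matrix.SpecialLinearGroup.coe_mul, Matrix.SpecialLinearGroup.coe_mul, hg, hg, hb]
    have e1 : Pm u v k = !![1, 0; (k : ZMod p), 1] * Pm u v 0 := by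
      simp only [Pm, u, v]
      ext i j
      fin_cases i <;> fin_cases j <;> simp [Matrix.mul_fin_two]
      ring
    have e2 : Pm' u v k * !![1, 0; (k : ZMod p), 1] = Pm' u v 0 := by
      simp only [Pm', u, v, Matrix.smul_mul]
      have : ((K + k : ℕ) : ZMod p) - (k : ZMod p) = ((K + 0 : ℕ) : ZMod p) - ((0 : ℕ) : ZMod p) := by
        push_cast; ring
      rw [this]
      congr 1
      ext i j
      fin_cases i <;> fin_cases j <;> simp [Matrix.mul_fin_two]
    simp only [letterMat]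
    rw [Matrix.mul_assoc _ _ (!![1, 0; (k : ZMod p), 1]), e2, e1]
    simp only [Matrix.mul_assoc]
  refine ⟨φ, ?_⟩
  intro h
  have h1 := lift_comp (FreeGroup.lift γ) φ w
  rw [h, map_one] at h1
  have h2 : (fun k => FreeGroup.lift γ (φ k)) = g := funext hφ
  rw [h2] at h1
  apply hne
  rw [h1]
  simp

end Cfsg.Agent.Lib.Helper44LawTwoGen
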