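import Mathlib
import Cfsg.Prelude.Def_Classical
import Cfsg.Agent.Lib.Helper44LawG
import Cfsg.Agent.Lib.Helper44LawNC
import Cfsg.Agent.Lib.Helper44LawTwoGen

set_option autoImplicit false

namespace Cfsg.Agent.Lib.Helper44LawSU

open Matrix Cfsg.Agent.Lib.Helper44LawNC

variable {F : Type*} [Field F]

theorem herm_preserve {n q : ℕ} (frob : F →+* F) (hfrob : ∀ x, frob x = x ^ q)
    (M : Matrix (Fin n) (Fin n) F) (hM : Mᵀ * M.map frob = 1) (u v : Fin n → F) :
    Cfsg.hermForm n F q (M *ᵥ u) (M *ᵥ v) = Cfsg.hermForm n F q u v := by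
  have h0 : ∀ x y : Fin n → F, Cfsg.hermForm n F q x y = x ⬝ᵥ (frob ∘ y) := by
    intro x y
    simp [Cfsg.hermForm, dotProduct, hfrob]
  rw [h0, h0]
  have h1 : frob ∘ (M *ᵥ v) = M.map frob *ᵥ (frob ∘ v) := by
    funext i
    exact RingHom.map_mulVec frob M v i
  rw [h1, dotProduct_comm, Matrix.dotProduct_mulVec, ← Matrix.mulVec_transpose,
    Matrix.mulVec_mulVec, hM, Matrix.one_mulVec, dotProduct_comm]

/-- existence of the `q`-power ring endomorphism -/
theorem exists_frob [Fintype F] (q : ℕ) (hF : Fintype.card F = q ^ 2) :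
    ∃ frob : F →+* F, ∀ x, frob x = x ^ q := by
  obtain ⟨p, hp⟩ := CharP.exists F
  obtain ⟨n, hpp, hcard⟩ := FiniteField.card F p
  have : Fact p.Prime := ⟨hpp⟩
  have hdvd : q ∣ p ^ (n : ℕ) := by
    rw [← hcard, hF]
    exact Dvd.intro_left (q ^ 1) (by ring)
  obtain ⟨k, _, hk⟩ := (Nat.dvd_prime_pow hpp).mp hdvd
  refine ⟨iterateFrobenius F p k, ?_⟩
  intro x
  rw [iterateFrobenius_def, hk]


def Pb (a b : F) : Bool → Matrix (Fin 2) (Fin 2) F := fun c => cond c 1 !![a, b; b, a]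

def Pb' (a b : F) : Bool → Matrix (Fin 2) (Fin 2) F :=
  fun c => cond c 1 ((a ^ 2 - b ^ 2)⁻¹ • !![a, -b; -b, a])

def dvec (d : F) : Bool → Fin 2 → F := fun β => cond β ![d, d⁻¹] ![d⁻¹, d]

def Mt (a b d : F) (x : Bool × Bool) : Matrix (Fin 2) (Fin 2) F :=
  Pb a b x.1 * Matrix.diagonal (dvec d x.2) * Pb' a b x.1

theorem Pb'_mul_Pb (a b : F) (hab : a ^ 2 - b ^ 2 ≠ 0) (c : Bool) : Pb' a b c * Pb a b c = 1 := by
  cases c
  · simp only [Pb, Pb', cond_false, Matrix.smul_mul]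
    have h : !![a, -b; -b, a] * !![a, b; b, a] = (a ^ 2 - b ^ 2) • (1 : Matrix (Fin 2) (Fin 2) F) := by
      rw [Matrix.mul_fin_two]
      ext i j
      fin_cases i <;> fin_cases j <;> simp <;> ring
    rw [h, smul_smul, inv_mul_cancel₀ hab, one_smul]
  · simp [Pb, Pb']

theorem Pb_mul_Pb' (a b : F) (hab : a ^ 2 - b ^ 2 ≠ 0) (c : Bool) : Pb a b c * Pb' a b c = 1 :=
  mul_eq_one_comm.mp (Pb'_mul_Pb a b hab c)

theorem dvec_mul (d : F) (hd : d ≠ 0) (β : Bool) :
    Matrix.diagonal (dvec d β) * Matrix.diagonal (dvec d (!β)) = 1 := by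
  rw [Matrix.diagonal_mul_diagonal]
  ext i j
  cases β <;> fin_cases i <;> fin_cases j <;> simp [dvec, hd]

theorem det_Mt (a b d : F) (hab : a ^ 2 - b ^ 2 ≠ 0) (hd : d ≠ 0) (x : Bool × Bool) :
    (Mt a b d x).det = 1 := by
  have h1 : (Pb a b x.1).det * (Pb' a b x.1).det = 1 := by
    rw [← Matrix.det_mul, Pb_mul_Pb' a b hab, Matrix.det_one]
  have h2 : (Matrix.diagonal (dvec d x.2)).det = 1 := by
    rw [Matrix.det_diagonal, Fin.prod_univ_two]
    cases x.2 <;> simp [dvec, hd]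
  rw [Mt, Matrix.det_mul, Matrix.det_mul, h2, mul_one, h1]

theorem Mt_mul (a b d : F) (hab : a ^ 2 - b ^ 2 ≠ 0) (hd : d ≠ 0) (c β : Bool) :
    Mt a b d (c, β) * Mt a b d (c, !β) = 1 := by
  simp only [Mt]
  calc Pb a b c * diagonal (dvec d β) * Pb' a b c * (Pb a b c * diagonal (dvec d !β) * Pb' a b c)
      = Pb a b c * (diagonal (dvec d β) * (Pb' a b c * Pb a b c) * diagonal (dvec d !β))
          * Pb' a b c := by simp only [Matrix.mul_assoc]
    _ = 1 := by
        rw [Pb'_mul_Pb a b hab, Matrix.mul_one, dvec_mul d hd, Matrix.mul_one, Pb_mul_Pb' a b hab]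

theorem Mt_false (a b d : F) (β : Bool) : Mt a b d (false, β) =
    (a ^ 2 - b ^ 2)⁻¹ • !![a ^ 2 * dvec d β 0 - b ^ 2 * dvec d β 1, a * b * (dvec d β 1 - dvec d β 0);
      a * b * (dvec d β 0 - dvec d β 1), a ^ 2 * dvec d β 1 - b ^ 2 * dvec d β 0] := by
  simp only [Mt, Pb, Pb', cond_false, Matrix.mul_smul]
  congr 1
  have hdiag : Matrix.diagonal (dvec d β) = !![dvec d β 0, 0; 0, dvec d β 1] := by
    ext i j
    fin_cases i <;> fin_cases j <;> simp
  rw [hdiag, Matrix.mul_fin_two, Matrix.mul_fin_two]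
  ext i j
  fin_cases i <;> fin_cases j <;> simp <;> ring

theorem Mt_unitary (frob : F →+* F) (a b d : F) (ha : frob a = a) (hb : frob b = -b)
    (hab : a ^ 2 - b ^ 2 ≠ 0) (hd : d ≠ 0) (hfd : frob d = d⁻¹) (x : Bool × Bool) :
    (Mt a b d x)ᵀ * (Mt a b d x).map frob = 1 := by
  obtain ⟨c, β⟩ := x
  have hfd' : frob d⁻¹ = d := by rw [map_inv₀, hfd, inv_inv]
  cases c
  · rw [Mt_false]
    have hc : frob (a ^ 2 - b ^ 2)⁻¹ = (a ^ 2 - b ^ 2)⁻¹ := by
      rw [map_inv₀, map_sub, map_pow, map_pow, ha, hb]; congr 1; ring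
    ext i j
    cases β <;> fin_cases i <;> fin_cases j <;>
      simp [Matrix.mul_apply, Fin.sum_univ_two, dvec, ha, hb, hfd, hfd', hc] <;>
      field_simp <;> ring
  · simp only [Mt, Pb, Pb', cond_true, Matrix.one_mul, Matrix.mul_one]
    ext i j
    cases β <;> fin_cases i <;> fin_cases j <;>
      simp [Matrix.mul_apply, Fin.sum_univ_two, dvec, hfd, hfd', hd]


def C0 : Matrix (Fin 2) (Fin 2) F := !![1, 1; 0, 1]

def C0' : Matrix (Fin 2) (Fin 2) F := !![1, -1; 0, 1]

theorem C0'_mul_C0 : (C0' : Matrix (Fin 2) (Fin 2) F) * C0 = 1 := by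
  rw [C0, C0', Matrix.mul_fin_two]
  ext i j
  fin_cases i <;> fin_cases j <;> simp

theorem C0_mul_C0' : (C0 : Matrix (Fin 2) (Fin 2) F) * C0' = 1 :=
  mul_eq_one_comm.mp C0'_mul_C0

def idxb : Bool → Fin 2 := fun β => cond β 0 1

def eb (q : ℕ) : Bool → Fin 2 → ℕ := fun β => cond β ![2 * (q - 1), 0] ![0, 2 * (q - 1)]

/-- an element of `SU 2 F q` from a matrix -/
def mkSU {q : ℕ} (frob : F →+* F) (hfrob : ∀ x, frob x = x ^ q) (M : Matrix (Fin 2) (Fin 2) F)
    (hdet : M.det = 1) (hU : Mᵀ * M.map frob = 1) : ↥(Cfsg.SU 2 F q) :=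
  ⟨⟨M, hdet⟩, fun u v => herm_preserve frob hfrob M hU u v⟩

/-- conjugated coercion to matrices -/
def conjCoe (q : ℕ) : ↥(Cfsg.SU 2 F q) →* Matrix (Fin 2) (Fin 2) F where
  toFun x := C0 * ((x : Matrix.SpecialLinearGroup (Fin 2) F) : Matrix (Fin 2) (Fin 2) F) * C0'
  map_one' := by simp [C0_mul_C0']
  map_mul' x y := by
    simp only [Subgroup.coe_mul, Matrix.SpecialLinearGroup.coe_mul]
    calc C0 * (x.1.1 * y.1.1) * C0' = C0 * x.1.1 * 1 * y.1.1 * C0' := by
          simp only [Matrix.mul_one, Matrix.mul_assoc]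
      _ = C0 * x.1.1 * C0' * (C0 * y.1.1 * C0') := by
          rw [← C0'_mul_C0]; simp only [Matrix.mul_assoc]

theorem NC_su2_bool (w' : FreeGroup Bool) (hw' : w' ≠ 1) :
    ∃ N : ℕ, ∀ (F : Type*) [Field F] [Fintype F] (q : ℕ), Fintype.card F = q ^ 2 → N ≤ q →
      NC w' ↥(Cfsg.SU 2 F q) := by
  classical
  set L := w'.toWord with hL
  have hLne : L ≠ [] := by
    rw [hL, Ne, FreeGroup.toWord_eq_nil_iff]; exact hw'
  refine ⟨2 * L.length + 3, ?_⟩
  intro F _ _ q hF hq
  obtain ⟨frob, hfrob⟩ := exists_frob q hF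
  have hpow : ∀ x : F, x ^ (q ^ 2) = x := by
    intro x; rw [← hF]; exact FiniteField.pow_card x
  obtain ⟨ζ, hζ⟩ : IsCyclic Fˣ := by infer_instance
  have hord : orderOf ζ = q ^ 2 - 1 := by
    rw [orderOf_eq_card_of_forall_mem_zpowers hζ, Nat.card_eq_fintype_card, Fintype.card_units, hF]
  have hq2 : q * q = q ^ 2 := by ring
  have hqq : 3 * q ≤ q ^ 2 := by nlinarith
  have hne1 : ∀ j, 0 < j → j < q ^ 2 - 1 → (ζ : F) ^ j ≠ 1 := by
    intro j hj0 hj h
    have h2 : ζ ^ j = 1 := Units.ext (by simpa using h)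
    have h3 := orderOf_le_of_pow_eq_one hj0 h2
    omega
  set s : F := (ζ : F) with hs
  have hs0 : s ≠ 0 := Units.ne_zero ζ
  set a : F := 1 - s ^ (q + 1) with ha_def
  set b : F := s - s ^ q with hb_def
  have hfa : frob a = a := by
    rw [ha_def, map_sub, map_one, hfrob, ← pow_mul]
    have : (q + 1) * q = q ^ 2 + q := by ring
    rw [this, pow_add, hpow, pow_succ]; ring
  have hfb : frob b = -b := by
    rw [hb_def, map_sub, hfrob, hfrob, ← pow_mul, hq2, hpow]; ring
  have ha0 : a ≠ 0 := by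
    intro h
    exact hne1 (q + 1) (by omega) (by omega) (by linear_combination -h)
  have hb0 : b ≠ 0 := by
    intro h
    apply hne1 (q - 1) (by omega) (by omega)
    have h1 : s * s ^ (q - 1) = s * 1 := by
      rw [← pow_succ', Nat.sub_add_cancel (by omega)]; linear_combination -h
    exact mul_left_cancel₀ hs0 h1
  have hapb : a + b ≠ 0 := by
    have h1 : a + b = (1 + s) * (1 - s ^ q) := by rw [ha_def, hb_def, pow_succ]; ring
    rw [h1]
    apply mul_ne_zero
    · intro h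
      apply hne1 2 (by omega) (by omega)
      have : s = -1 := by linear_combination h
      rw [this]; ring
    · intro h
      exact hne1 q (by omega) (by omega) (by linear_combination -h)
  have hamb : a - b ≠ 0 := by
    have h1 : a - b = (1 - s) * (1 + s ^ q) := by rw [ha_def, hb_def, pow_succ]; ring
    rw [h1]
    apply mul_ne_zero
    · intro h
      apply hne1 1 (by omega) (by omega)
      rw [pow_one]; linear_combination -h
    · intro h
      apply hne1 (2 * q) (by omega) (by omega)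
      have : s ^ q = -1 := by linear_combination h
      rw [mul_comm, pow_mul, this]; ring
  have hab : a ^ 2 - b ^ 2 ≠ 0 := by
    have : a ^ 2 - b ^ 2 = (a + b) * (a - b) := by ring
    rw [this]; exact mul_ne_zero hapb hamb
  have hκ : (a ^ 2 - b ^ 2)⁻¹ ≠ 0 := inv_ne_zero hab
  clear_value a b
  have hfd : ∀ t : F, t ≠ 0 → frob (t ^ (q - 1)) = (t ^ (q - 1))⁻¹ := by
    intro t ht
    rw [hfrob]
    apply eq_inv_of_mul_eq_one_left
    rw [← pow_mul, ← pow_add]
    have h1 : (q - 1) * q + (q - 1) + 1 = q ^ 2 := by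
      obtain ⟨r, rfl⟩ : ∃ r, q = r + 1 := ⟨q - 1, by omega⟩
      simp only [Nat.add_sub_cancel]; ring
    have h2 : t * t ^ ((q - 1) * q + (q - 1)) = t * 1 := by
      rw [← pow_succ', h1, hpow, mul_one]
    exact mul_left_cancel₀ ht h2
  obtain ⟨t, ht, hne⟩ := Cfsg.Agent.Lib.Helper44LawG.exists_entry_ne_zero
    (fun c => C0 * Pb a b c) (fun c => Pb' a b c * C0') (eb q) 0 1 idxb (2 * (q - 1)) (q - 1)
    Set.univ (fun t => dvec (t ^ (q - 1)))
    (by
      intro t ht β i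
      have := pow_ne_zero (q - 1) ht
      cases β <;> fin_cases i <;> simp [eb, dvec, this, two_mul, pow_add])
    (by
      intro β i hi
      cases β <;> fin_cases i <;> simp_all [eb, idxb] <;> omega)
    (by
      intro β
      cases β <;> simp [eb, idxb])
    (by
      intro k _ β
      cases k <;> cases β <;> simp [C0, Pb, idxb, hapb, add_comm b a])
    (by
      intro k _ β
      have h2 : b + a ≠ 0 := by rwa [add_comm]
      have h1 : (a ^ 2 - b ^ 2)⁻¹ * b + (a ^ 2 - b ^ 2)⁻¹ * a ≠ 0 := by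
        rw [← mul_add]; exact mul_ne_zero hκ h2
      have h3 : -((a ^ 2 - b ^ 2)⁻¹ * a) + -((a ^ 2 - b ^ 2)⁻¹ * b) ≠ 0 := by
        intro h; apply h1; linear_combination -h
      cases k <;> cases β <;> simp [C0', Pb', idxb, h1, h3])
    (by
      intro k _ l _ β β' hbb
      have h0 : Pb' a b k * C0' * (C0 * Pb a b l) = Pb' a b k * Pb a b l := by
        calc Pb' a b k * C0' * (C0 * Pb a b l) = Pb' a b k * (C0' * C0) * Pb a b l := by
              simp only [Matrix.mul_assoc]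
          _ = _ := by rw [C0'_mul_C0, Matrix.mul_one]
      rw [h0]
      by_cases hkl : k = l
      · subst hkl
        rw [Pb'_mul_Pb a b hab, hbb rfl]
        simp
      · cases k <;> cases l <;> first | exact absurd rfl hkl | skip
        · cases β <;> cases β' <;> simp [Pb, Pb', idxb, hab, ha0, hb0]
        · cases β <;> cases β' <;> simp [Pb, Pb', idxb, ha0, hb0])
    L hLne FreeGroup.isReduced_toWord (fun _ _ => Set.mem_univ _)
    (by
      rw [hF]
      have : 2 * L.length + 3 ≤ q := hq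
      obtain ⟨r, rfl⟩ : ∃ r, q = r + 1 := ⟨q - 1, by omega⟩
      simp only [Nat.add_sub_cancel]
      nlinarith)
  -- the group elements
  have hd0 : ∀ t : F, t ≠ 0 → t ^ (q - 1) ≠ 0 := fun t ht => pow_ne_zero _ ht
  let G : F → Bool × Bool → ↥(Cfsg.SU 2 F q) := fun t x =>
    if ht : t ≠ 0 then
      mkSU frob hfrob (Mt a b (t ^ (q - 1)) x) (det_Mt a b _ hab (hd0 t ht) x)
        (Mt_unitary frob a b _ hfa hfb hab (hd0 t ht) (hfd t ht) x)
    else 1
  have hG : ∀ t : F, t ≠ 0 → ∀ x, (((G t x : ↥(Cfsg.SU 2 F q)) :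
      Matrix.SpecialLinearGroup (Fin 2) F) : Matrix (Fin 2) (Fin 2) F) = Mt a b (t ^ (q - 1)) x := by
    intro t ht x
    simp only [G, dif_pos ht]
    rfl
  have hGinv : ∀ c, (G t (c, true))⁻¹ = G t (c, false) := by
    intro c
    apply inv_eq_of_mul_eq_one_right
    apply Subtype.ext
    apply Subtype.ext
    rw [Subgroup.coe_mul, Matrix.SpecialLinearGroup.coe_mul, hG t ht, hG t ht]
    exact Mt_mul a b _ hab (hd0 t ht) c true
  refine ⟨fun c => G t (c, true), ?_⟩
  have hletter : ∀ x : Bool × Bool, conjCoe q (G t x) =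
      Cfsg.Agent.Lib.Helper44LawG.letterMat (fun c => C0 * Pb a b c) (fun c => Pb' a b c * C0')
        (dvec (t ^ (q - 1))) x := by
    intro x
    show (C0 : Matrix (Fin 2) (Fin 2) F) * _ * C0' = _
    rw [hG t ht]
    simp only [Cfsg.Agent.Lib.Helper44LawG.letterMat, Mt, Matrix.mul_assoc]
  have key := Cfsg.Agent.Lib.Helper44LawG.lift_eq_prod (conjCoe (F := F) q)
    (fun c => C0 * Pb a b c) (fun c => Pb' a b c * C0') (dvec (t ^ (q - 1)))
    (fun c => G t (c, true)) (fun c => hletter (c, true))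
    (fun c => by rw [hGinv c]; exact hletter (c, false)) L
  rw [hL, FreeGroup.mk_toWord, ← hL] at key
  rw [← key] at hne
  intro hcen
  apply hne
  set x := FreeGroup.lift (fun c => G t (c, true)) w' with hx
  set X : Matrix (Fin 2) (Fin 2) F := ((x : Matrix.SpecialLinearGroup (Fin 2) F) :
    Matrix (Fin 2) (Fin 2) F) with hX
  rw [Subgroup.mem_center_iff] at hcen
  have hcomm : ∀ y : Bool × Bool, Mt a b (s ^ (q - 1)) y * X = X * Mt a b (s ^ (q - 1)) y := by
    intro y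
    have h1 := hcen (G s y)
    have h2 := congrArg (fun z : ↥(Cfsg.SU 2 F q) =>
      ((z : Matrix.SpecialLinearGroup (Fin 2) F) : Matrix (Fin 2) (Fin 2) F)) h1
    simp only [Subgroup.coe_mul, Matrix.SpecialLinearGroup.coe_mul] at h2
    rw [hG s hs0] at h2
    exact h2
  set lam : F := s ^ (q - 1) with hlam
  have hlam0 : lam ≠ 0 := hd0 s hs0
  clear_value lam
  have hlam2 : lam⁻¹ - lam ≠ 0 := by
    intro h
    apply hne1 (2 * (q - 1)) (by omega) (by
      obtain ⟨r, rfl⟩ : ∃ r, q = r + 1 := ⟨q - 1, by omega⟩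
      simp only [Nat.add_sub_cancel]
      have : (r + 1) ^ 2 = r * r + 2 * r + 1 := by ring
      have h3 : 2 ≤ r := by omega
      have : 2 * r ≤ r * r := Nat.mul_le_mul_right r h3
      omega)
    rw [mul_comm, pow_mul, ← hlam]
    field_simp at h
    linear_combination -h
  have e1 := hcomm (true, true)
  have e2 := hcomm (false, true)
  have hMt : Mt a b lam (true, true) = !![lam, 0; 0, lam⁻¹] := by
    simp only [Mt, Pb, Pb', cond_true, Matrix.one_mul, Matrix.mul_one]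
    ext i j
    fin_cases i <;> fin_cases j <;> simp [dvec]
  rw [hMt] at e1
  rw [Mt_false] at e2
  have hXeta : X = !![X 0 0, X 0 1; X 1 0, X 1 1] := Matrix.eta_fin_two X
  have x01 : X 0 1 = 0 := by
    have := congrFun (congrFun e1 0) 1
    rw [hXeta] at this
    simp [Matrix.mul_fin_two] at this
    have h3 : X 0 1 * (lam⁻¹ - lam) = 0 := by linear_combination -this
    exact (mul_eq_zero.mp h3).resolve_right hlam2
  have x10 : X 1 0 = 0 := by
    have := congrFun (congrFun e1 1) 0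
    rw [hXeta] at this
    simp [Matrix.mul_fin_two] at this
    have h3 : X 1 0 * (lam⁻¹ - lam) = 0 := by linear_combination this
    exact (mul_eq_zero.mp h3).resolve_right hlam2
  have x00 : X 0 0 = X 1 1 := by
    have := congrFun (congrFun e2 0) 1
    rw [hXeta] at this
    simp [Matrix.mul_fin_two, dvec, x01, x10, hab] at this
    have h4 : (a ^ 2 - b ^ 2)⁻¹ * (a * b * (lam⁻¹ - lam)) ≠ 0 :=
      mul_ne_zero hκ (mul_ne_zero (mul_ne_zero ha0 hb0) hlam2)
    have h3 : ((a ^ 2 - b ^ 2)⁻¹ * (a * b * (lam⁻¹ - lam))) * (X 1 1 - X 0 0) = 0 := by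
      linear_combination this
    have := (mul_eq_zero.mp h3).resolve_left h4
    linear_combination -this
  show (C0 * X * C0' : Matrix (Fin 2) (Fin 2) F) 0 1 = 0
  rw [hXeta, C0, C0', Matrix.mul_fin_two, Matrix.mul_fin_two]
  simp [x01, x10, x00]


theorem NC_su2 (w : FreeGroup ℕ) (hw : w ≠ 1) :
    ∃ N : ℕ, ∀ (F : Type*) [Field F] [Fintype F] (q : ℕ), Fintype.card F = q ^ 2 → N ≤ q →
      NC w ↥(Cfsg.SU 2 F q) := by
  obtain ⟨φ, hφ⟩ := Cfsg.Agent.Lib.Helper44LawTwoGen.exists_two_gen w hw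
  obtain ⟨N, hN⟩ := NC_su2_bool (FreeGroup.lift φ w) hφ
  refine ⟨N, ?_⟩
  intro F _ _ q hF hq
  obtain ⟨g', hg'⟩ := hN F q hF hq
  refine ⟨fun k => FreeGroup.lift g' (φ k), ?_⟩
  rw [lift_comp (FreeGroup.lift g') φ w]
  exact hg'

end Cfsg.Agent.Lib.Helper44LawSU
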