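import Mathlib
import Cfsg.Agent.Lib.Helper44ODefs
import Cfsg.Agent.Lib.Helper44Ker
import Cfsg.Agent.Lib.Helper49Perfect
import Cfsg.Agent.Lib.Helper49Center
import Cfsg.Agent.Lib.Helper49Forms
import Cfsg.Agent.Lib.Helper49Rank
import Cfsg.Agent.S0296

set_option autoImplicit false

namespace Cfsg.Agent.Lib.Helper44Ont

open Matrix Cfsg Cfsg.Agent.Lib.Helper44ODefs

variable {F : Type*} [Field F] [Fintype F] [DecidableEq F]

theorem chi_nt (k : ℕ) (hk : 2 ≤ k)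
    (hU : ∀ X : Multiplicative (Matrix (Fin (k + 2)) (Fin (k + 2)) F),
      uI X ∈ Cfsg.Omega F (Cfsg.quadFormPlus (k + 2) F))
    (χ : OO (k + 2) F → ℂ) (hχ : IsIrrCharacter (OO (k + 2) F) χ) (h1 : χ 1 ≠ 1) :
    χ (uQ hU (Multiplicative.ofAdd (X0 k F))) ≠ χ 1 := by
  intro h
  have hQ := Cfsg.Agent.Lib.Helper49Rank.QPlus_nondegenerate (F := F) (k + 2)
  have hn : 5 ≤ Fintype.card (Fin (k + 2) ⊕ Fin (k + 2)) := by
    simp only [Fintype.card_sum, Fintype.card_fin]; omega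
  have hperf : commutator (OO (k + 2) F) = ⊤ := by
    have := Cfsg.Agent.Lib.Helper49Perfect.Omega_perfect (Cfsg.Agent.Lib.Helper49Forms.QPlus (k + 2) F)
      hQ hn
    rw [Cfsg.Agent.Lib.Helper49Forms.coe_QPlus] at this
    exact this
  have hc := Cfsg.Agent.Lib.Helper44Ker.mem_center_of_char_eq
    (Cfsg.Agent.S0296.result (F := F) (k + 2) (by omega)) hperf χ hχ h1 _ h
  have key : ∀ (Q' : (Fin (k + 2) ⊕ Fin (k + 2) → F) → F),
      ⇑(Cfsg.Agent.Lib.Helper49Forms.QPlus (k + 2) F) = Q' →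
      ∀ z : ↥(Cfsg.Omega F Q'), z ∈ Subgroup.center ↥(Cfsg.Omega F Q') →
      (((z : ↥(Cfsg.isometryGroup F Q')) : Matrix.GeneralLinearGroup (Fin (k + 2) ⊕ Fin (k + 2)) F) :
        Matrix (Fin (k + 2) ⊕ Fin (k + 2)) (Fin (k + 2) ⊕ Fin (k + 2)) F) = 1 ∨
      (((z : ↥(Cfsg.isometryGroup F Q')) : Matrix.GeneralLinearGroup (Fin (k + 2) ⊕ Fin (k + 2)) F) :
        Matrix (Fin (k + 2) ⊕ Fin (k + 2)) (Fin (k + 2) ⊕ Fin (k + 2)) F) = -1 := by
    rintro _ rfl z hz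
    exact Cfsg.Agent.Lib.Helper49Center.coe_eq_of_mem_center _ hQ hn hz
  have h2 := key _ (Cfsg.Agent.Lib.Helper49Forms.coe_QPlus (k + 2)) _ hc
  rw [uQ_coe, uI_coe] at h2
  rcases h2 with h2 | h2
  · have := congrFun (congrFun h2 (Sum.inl 0)) (Sum.inr 1)
    simp [X0, Matrix.single_apply] at this
  · have := congrFun (congrFun h2 (Sum.inl 0)) (Sum.inr 1)
    simp [X0, Matrix.single_apply] at this

end Cfsg.Agent.Lib.Helper44Ont
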