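import Mathlib
import Cfsg.Agent.Lib.Helper44SLDefs

set_option autoImplicit false

namespace Cfsg.Agent.Lib.Helper44SLtweq

open Matrix Cfsg Cfsg.Agent.Lib.Helper44Wt Cfsg.Agent.Lib.Helper44SLDefs

variable {F : Type*} [Field F]

theorem jHom_of_det (m : ℕ) (g : GL (Fin 2) F) (hg : (g : Matrix (Fin 2) (Fin 2) F).det = 1) :
    jHom m g = pel (g : Matrix (Fin 2) (Fin 2) F) 0 1 (by rw [hg, Matrix.det_one, mul_one]) := by
  have h1 : Matrix.GeneralLinearGroup.det g = 1 := by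
    apply Units.ext
    rw [Matrix.GeneralLinearGroup.val_det_apply, hg]; rfl
  rw [jHom_apply, lev]
  apply pel_congr _ rfl rfl
  rw [h1, inv_one, map_one]; rfl

theorem w2_inv_coe : (((w2 : GL (Fin 2) F)⁻¹ : GL (Fin 2) F) : Matrix (Fin 2) (Fin 2) F) =
    !![0, 1; -1, 0] := by
  have h : (w2 : GL (Fin 2) F) * Matrix.GeneralLinearGroup.mkOfDetNeZero !![0, 1; -1, 0]
      (by simp [Matrix.det_fin_two_of]) = 1 := by
    apply Units.ext
    show (!![0, -1; 1, 0] : Matrix (Fin 2) (Fin 2) F) * !![0, 1; -1, 0] = 1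
    ext i j; fin_cases i <;> fin_cases j <;> simp [Matrix.mul_apply, Fin.sum_univ_two]
  rw [inv_eq_of_mul_eq_one_right h]; rfl

theorem key (m : ℕ) (c c' : F) (y y' : Fin (m + 1) → F) :
    jHom m w2 * upHom (Multiplicative.ofAdd (c', y')) * (jHom m w2)⁻¹ *
      upHom (Multiplicative.ofAdd (c, y)) =
    ulHom (Multiplicative.ofAdd (y, y' - c' • y)) *
      jHom m (w2 * xGL (Multiplicative.ofAdd c') * w2⁻¹ * xGL (Multiplicative.ofAdd c)) := by
  have hw : ((w2 : GL (Fin 2) F) : Matrix (Fin 2) (Fin 2) F).det = 1 := by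
    rw [w2_coe, Matrix.det_fin_two_of]; simp
  have hwi : (((w2 : GL (Fin 2) F)⁻¹ : GL (Fin 2) F) : Matrix (Fin 2) (Fin 2) F).det = 1 := by
    rw [w2_inv_coe, Matrix.det_fin_two_of]; simp
  have hγ : ((w2 * xGL (Multiplicative.ofAdd c') * w2⁻¹ * xGL (Multiplicative.ofAdd c) :
      GL (Fin 2) F) : Matrix (Fin 2) (Fin 2) F).det = 1 := by
    simp only [Matrix.GeneralLinearGroup.coe_mul, Matrix.det_mul, hw, hwi, xGL_coe, det_tt, mul_one]
  rw [← map_inv, jHom_of_det m w2 hw, jHom_of_det m w2⁻¹ hwi, jHom_of_det m _ hγ, upHom_apply,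
    upHom_apply, ulHom_apply]
  unfold uK
  rw [pel_mul, pel_mul, pel_mul, pel_mul]
  apply pel_congr
  · simp only [Matrix.GeneralLinearGroup.coe_mul, xGL_coe, tt_zero, Matrix.one_mul]
  · simp only [w2_coe, w2_inv_coe, Matrix.mul_zero, Matrix.mul_one, Matrix.zero_mul, add_zero,
      zero_add]
    ext i j
    fin_cases i <;> simp [rows, tt, Matrix.mul_apply, Fin.sum_univ_two] <;> ring
  · simp

variable [Fintype F]

theorem tw_eq (m : ℕ) (χ : GG (m + 1) F → ℂ) (hχ : IsClassFunction (GG (m + 1) F) χ) :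
    tw upHom (jHom m w2) χ = tw xGL w2 (hc ulHom 0 (jHom m) χ) := by
  classical
  unfold tw hc
  simp only [Fintype.sum_prod_type, key]
  have hq : (Fintype.card F : ℂ) ≠ 0 := by exact_mod_cast Fintype.card_ne_zero
  have hV : (Fintype.card (Fin (m + 1) → F) : ℂ) ≠ 0 := by exact_mod_cast Fintype.card_ne_zero
  have h0 : ∀ a : (Fin (m + 1) → F) × (Fin (m + 1) → F),
      (starRingEnd ℂ) ((0 : AddChar ((Fin (m + 1) → F) × (Fin (m + 1) → F)) ℂ) a) = 1 := by
    intro a; simp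
  simp only [h0, mul_one]
  rw [Fintype.card_prod, Fintype.card_prod]
  push_cast
  simp only [← Finset.mul_sum]
  have hsum : ∀ c c' : F, ∑ y : Fin (m + 1) → F, ∑ y' : Fin (m + 1) → F,
      χ (ulHom (Multiplicative.ofAdd (y, y' - c' • y)) *
        jHom m (w2 * xGL (Multiplicative.ofAdd c') * w2⁻¹ * xGL (Multiplicative.ofAdd c))) =
      ∑ y : Fin (m + 1) → F, ∑ y' : Fin (m + 1) → F,
      χ (ulHom (Multiplicative.ofAdd (y, y')) *
        jHom m (w2 * xGL (Multiplicative.ofAdd c') * w2⁻¹ * xGL (Multiplicative.ofAdd c))) := by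
    intro c c'
    apply Finset.sum_congr rfl
    intro y _
    exact (Equiv.subRight (c' • y)).sum_comp (fun z => χ (ulHom (Multiplicative.ofAdd (y, z)) *
        jHom m (w2 * xGL (Multiplicative.ofAdd c') * w2⁻¹ * xGL (Multiplicative.ofAdd c))))
  have hre : ∑ c : F, ∑ y : Fin (m + 1) → F, ∑ c' : F, ∑ y' : Fin (m + 1) → F,
      χ (ulHom (Multiplicative.ofAdd (y, y' - c' • y)) *
        jHom m (w2 * xGL (Multiplicative.ofAdd c') * w2⁻¹ * xGL (Multiplicative.ofAdd c))) =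
      ∑ c : F, ∑ c' : F, ∑ y : Fin (m + 1) → F, ∑ y' : Fin (m + 1) → F,
      χ (ulHom (Multiplicative.ofAdd (y, y')) *
        jHom m (w2 * xGL (Multiplicative.ofAdd c') * w2⁻¹ * xGL (Multiplicative.ofAdd c))) := by
    apply Finset.sum_congr rfl
    intro c _
    rw [Finset.sum_comm]
    apply Finset.sum_congr rfl
    intro c' _
    exact hsum c c'
  rw [hre]
  field_simp

end Cfsg.Agent.Lib.Helper44SLtweq
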