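import Mathlib
import Cfsg.Agent.Lib.Helper44SLDefs
import Cfsg.Agent.Lib.Helper98MinDefs

set_option autoImplicit false

namespace Cfsg.Agent.Lib.Helper76SLnnsum

open Matrix Cfsg Cfsg.Agent.Lib.Helper44Wt Cfsg.Agent.Lib.Helper44SLDefs
  Cfsg.Agent.Lib.Helper44P1 Cfsg.Agent.Lib.Helper44GL2

/-- Fourier: summing over all characters isolates the value at `0`. -/
theorem sum_char_conj {B : Type*} [AddCommGroup B] [Fintype B] (f : B → ℂ) :
    ∑ β : AddChar B ℂ, ∑ y : B, f y * (starRingEnd ℂ) (β y) = (Fintype.card B : ℂ) * f 0 := by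
  classical
  rw [Finset.sum_comm]
  have h1 : ∀ y : B, ∑ β : AddChar B ℂ, f y * (starRingEnd ℂ) (β y)
      = if y = 0 then (Fintype.card B : ℂ) * f 0 else 0 := by
    intro y
    rw [← Finset.mul_sum]
    have : ∀ β : AddChar B ℂ, (starRingEnd ℂ) (β y) = β (-y) := fun β =>
      (AddChar.map_neg_eq_conj β y).symm
    simp only [this, AddChar.sum_apply_eq_ite, neg_eq_zero]
    split_ifs with h
    · rw [h]; ring
    · ring
  simp only [h1]
  rw [Finset.sum_ite_eq' Finset.univ (0 : B)]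
  simp

variable {F : Type*} [Field F]
variable [Fintype F]

theorem nn_sum_right (k : ℕ) (χ : GG k F → ℂ) (α : AddChar F ℂ) :
    ∑ β : AddChar (Fin k → F) ℂ, nn χ α β = wt upHom χ (pc α 0) := by
  classical
  have hQ : (Fintype.card (Fin k → F) : ℂ) ≠ 0 := by exact_mod_cast Fintype.card_ne_zero
  have hq : (Fintype.card F : ℂ) ≠ 0 := by exact_mod_cast Fintype.card_ne_zero
  unfold nn wt
  rw [← Finset.mul_sum]
  have h1 : ∑ β : AddChar (Fin k → F) ℂ, ∑ c : F, ∑ y₀ : Fin k → F, ∑ y₁ : Fin k → F,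
      χ (uK c (rows y₀ y₁)) * (starRingEnd ℂ) (α c) * (starRingEnd ℂ) (β y₁)
      = ∑ c : F, ∑ y₀ : Fin k → F, (Fintype.card (Fin k → F) : ℂ) *
          (χ (uK c (rows y₀ 0)) * (starRingEnd ℂ) (α c)) := by
    rw [Finset.sum_comm]
    apply Finset.sum_congr rfl
    intro c _
    rw [Finset.sum_comm]
    apply Finset.sum_congr rfl
    intro y₀ _
    exact sum_char_conj (fun y₁ => χ (uK c (rows y₀ y₁)) * (starRingEnd ℂ) (α c))
  rw [h1, Fintype.sum_prod_type, Fintype.card_prod]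
  simp only [← Finset.mul_sum]
  push_cast
  have h2 : ∀ (c : F) (y : Fin k → F), χ (upHom (Multiplicative.ofAdd (c, y))) *
      (starRingEnd ℂ) (pc α (0 : AddChar (Fin k → F) ℂ) (c, y))
      = χ (uK c (rows y 0)) * (starRingEnd ℂ) (α c) := by
    intro c y
    rw [upHom_apply, pc_apply]
    simp
  simp only [h2]
  field_simp

theorem nn_sum_left (k : ℕ) (χ : GG k F → ℂ) (β : AddChar (Fin k → F) ℂ) :
    ∑ α : AddChar F ℂ, nn χ α β = wt ulHom χ (pc 0 β) := by
  classical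
  have hQ : (Fintype.card (Fin k → F) : ℂ) ≠ 0 := by exact_mod_cast Fintype.card_ne_zero
  have hq : (Fintype.card F : ℂ) ≠ 0 := by exact_mod_cast Fintype.card_ne_zero
  unfold nn wt
  rw [← Finset.mul_sum]
  have h1 : ∑ α : AddChar F ℂ, ∑ c : F, ∑ y₀ : Fin k → F, ∑ y₁ : Fin k → F,
      χ (uK c (rows y₀ y₁)) * (starRingEnd ℂ) (α c) * (starRingEnd ℂ) (β y₁)
      = (Fintype.card F : ℂ) * ∑ y₀ : Fin k → F, ∑ y₁ : Fin k → F,
          (χ (uK 0 (rows y₀ y₁)) * (starRingEnd ℂ) (β y₁)) := by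
    rw [← sum_char_conj (fun c => ∑ y₀ : Fin k → F, ∑ y₁ : Fin k → F,
          (χ (uK c (rows y₀ y₁)) * (starRingEnd ℂ) (β y₁)))]
    apply Finset.sum_congr rfl
    intro α _
    apply Finset.sum_congr rfl
    intro c _
    rw [Finset.sum_mul]
    apply Finset.sum_congr rfl
    intro y₀ _
    rw [Finset.sum_mul]
    apply Finset.sum_congr rfl
    intro y₁ _
    ring
  rw [h1, Fintype.sum_prod_type, Fintype.card_prod]
  push_cast
  have h2 : ∀ (y₀ y₁ : Fin k → F), χ (ulHom (Multiplicative.ofAdd (y₀, y₁))) *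
      (starRingEnd ℂ) (pc (0 : AddChar (Fin k → F) ℂ) β (y₀, y₁))
      = χ (uK 0 (rows y₀ y₁)) * (starRingEnd ℂ) (β y₁) := by
    intro y₀ y₁
    rw [ulHom_apply, pc_apply]
    simp
  simp only [h2]
  field_simp

theorem ul_sum (k : ℕ) (χ : GG k F → ℂ) (β₀ : AddChar (Fin k → F) ℂ) :
    ∑ β₁ : AddChar (Fin k → F) ℂ, wt ulHom χ (pc β₀ β₁) = wt r1Hom χ β₀ := by
  classical
  have hQ : (Fintype.card (Fin k → F) : ℂ) ≠ 0 := by exact_mod_cast Fintype.card_ne_zero
  unfold wt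
  rw [← Finset.mul_sum]
  have h1 : ∑ β₁ : AddChar (Fin k → F) ℂ, ∑ a : (Fin k → F) × (Fin k → F),
      χ (ulHom (Multiplicative.ofAdd a)) * (starRingEnd ℂ) (pc β₀ β₁ a)
      = ∑ y₀ : Fin k → F, (Fintype.card (Fin k → F) : ℂ) *
          (χ (uK 0 (rows y₀ 0)) * (starRingEnd ℂ) (β₀ y₀)) := by
    simp only [Fintype.sum_prod_type]
    rw [Finset.sum_comm]
    apply Finset.sum_congr rfl
    intro y₀ _
    rw [← sum_char_conj (fun y₁ => χ (uK 0 (rows y₀ y₁)) * (starRingEnd ℂ) (β₀ y₀))]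
    apply Finset.sum_congr rfl
    intro β₁ _
    apply Finset.sum_congr rfl
    intro y₁ _
    rw [ulHom_apply, pc_apply, map_mul]
    ring
  rw [h1, Fintype.card_prod]
  simp only [← Finset.mul_sum, r1Hom_apply]
  push_cast
  field_simp

end Cfsg.Agent.Lib.Helper76SLnnsum
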