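import Mathlib
import Cfsg.Agent.Lib.Helper44SLDefs
import Cfsg.Agent.Lib.Helper44SymOrb
import Cfsg.Agent.Lib.Helper98MinDefs
import Cfsg.Agent.Lib.Helper76SLnnsum

set_option autoImplicit false

namespace Cfsg.Agent.Lib.Helper44SLulwt

open Matrix Cfsg Cfsg.Agent.Lib.Helper44Wt Cfsg.Agent.Lib.Helper44SLDefs
  Cfsg.Agent.Lib.Helper4Char Cfsg.Agent.Lib.Helper4Char4 Cfsg.Agent.Lib.Helper44SymOrb

variable {F : Type*} [Field F] {k : ℕ}

theorem rows_mul (y₀ y₁ : Fin k → F) (M : Matrix (Fin k) (Fin k) F) :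
    rows y₀ y₁ * M = rows (y₀ ᵥ* M) (y₁ ᵥ* M) := by
  ext i j
  fin_cases i <;> simp [rows, Matrix.mul_apply, Matrix.vecMul, dotProduct]

/-- `y ↦ y ᵥ* E` as an equivalence -/
def vm (E : GL (Fin k) F) : (Fin k → F) ≃ (Fin k → F) where
  toFun y := y ᵥ* (E : Matrix (Fin k) (Fin k) F)
  invFun y := y ᵥ* ((E⁻¹ : GL (Fin k) F) : Matrix (Fin k) (Fin k) F)
  left_inv y := by
    simp only [Matrix.vecMul_vecMul]
    rw [← Matrix.GeneralLinearGroup.coe_mul, mul_inv_cancel]; simp
  right_inv y := by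
    simp only [Matrix.vecMul_vecMul]
    rw [← Matrix.GeneralLinearGroup.coe_mul, inv_mul_cancel]; simp

/-- `diag(1, d)` -/
noncomputable def dg2 (d : Fˣ) : GL (Fin 2) F :=
  Matrix.GeneralLinearGroup.mkOfDetNeZero !![1, 0; 0, (d : F)] (by simp [Matrix.det_fin_two_of])

theorem dg2_coe (d : Fˣ) : (dg2 d : Matrix (Fin 2) (Fin 2) F) = !![1, 0; 0, (d : F)] := rfl

theorem dg2_mul_rows (d : Fˣ) (y₀ y₁ : Fin k → F) :
    (dg2 d : Matrix (Fin 2) (Fin 2) F) * rows y₀ y₁ = rows y₀ ((d : F) • y₁) := by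
  ext i j
  fin_cases i <;> simp [rows, dg2_coe, Matrix.mul_apply, Fin.sum_univ_two]

theorem conj_of_mul {G : Type*} [Group G] {g a b : G} (h : g * a = b * g) : g * a * g⁻¹ = b := by
  rw [h, mul_inv_cancel_right]

theorem lev_ul (A : GL (Fin 2) F) (D : GL (Fin k) F)
    (h : (A : Matrix (Fin 2) (Fin 2) F).det * (D : Matrix (Fin k) (Fin k) F).det = 1)
    (X : Matrix (Fin 2) (Fin k) F) :
    lev A D h * uK 0 X * (lev A D h)⁻¹ = uK 0 ((A : Matrix (Fin 2) (Fin 2) F) * X *
      ((D⁻¹ : GL (Fin k) F) : Matrix (Fin k) (Fin k) F)) := by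
  apply conj_of_mul
  unfold uK
  rw [lev_conj]
  congr 1
  apply pel_congr
  · rw [tt_zero, Matrix.mul_one, ← Matrix.GeneralLinearGroup.coe_mul, mul_inv_cancel]; rfl
  · rfl
  · rfl

variable [Fintype F]

/-- invariance under the Levi elements `diag(1, d, E⁻¹)` -/
theorem N_lev (χ : GG k F → ℂ) (hcl : IsClassFunction (GG k F) χ) (d : Fˣ) (E : GL (Fin k) F)
    (hE : (E : Matrix (Fin k) (Fin k) F).det = d) (ψ : AddChar F ℂ) (b₀ b₁ : Fin k → F) :
    wt ulHom χ (pc (chV ψ ((E : Matrix (Fin k) (Fin k) F) *ᵥ b₀))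
      (chV ψ ((d : F) • ((E : Matrix (Fin k) (Fin k) F) *ᵥ b₁)))) =
    wt ulHom χ (pc (chV ψ b₀) (chV ψ b₁)) := by
  have hdet : (dg2 d : Matrix (Fin 2) (Fin 2) F).det *
      ((E⁻¹ : GL (Fin k) F) : Matrix (Fin k) (Fin k) F).det = 1 := by
    have h1 : (E : Matrix (Fin k) (Fin k) F).det *
        ((E⁻¹ : GL (Fin k) F) : Matrix (Fin k) (Fin k) F).det = 1 := by
      rw [← Matrix.det_mul, ← Matrix.GeneralLinearGroup.coe_mul, mul_inv_cancel]; simp
    rw [dg2_coe, Matrix.det_fin_two_of, ← hE]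
    simpa using h1
  apply wt_conj ulHom χ (Equiv.prodCongr (vm E) ((vm E).trans (MulAction.toPerm d)))
  · rintro ⟨y₀, y₁⟩
    have h1 := lev_ul (dg2 d) E⁻¹ hdet (rows y₀ y₁)
    rw [inv_inv, dg2_mul_rows, rows_mul] at h1
    rw [ulHom_apply y₀ y₁, ← hcl (uK 0 (rows y₀ y₁)) (lev (dg2 d) E⁻¹ hdet), h1]
    show χ (uK 0 (rows (y₀ ᵥ* (E : Matrix (Fin k) (Fin k) F))
      (d • (y₁ ᵥ* (E : Matrix (Fin k) (Fin k) F))))) = _
    rw [Units.smul_def, Matrix.smul_vecMul]
  · rintro ⟨y₀, y₁⟩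
    show chV ψ _ y₀ * chV ψ _ y₁ = chV ψ b₀ (y₀ ᵥ* (E : Matrix (Fin k) (Fin k) F)) *
      chV ψ b₁ (d • (y₁ ᵥ* (E : Matrix (Fin k) (Fin k) F)))
    rw [chV_apply, chV_apply, chV_apply, chV_apply, Matrix.dotProduct_mulVec, Units.smul_def,
      dotProduct_smul, smul_dotProduct, Matrix.dotProduct_mulVec]

/-- invariance under the root group -/
theorem N_x (χ : GG k F → ℂ) (hcl : IsClassFunction (GG k F) χ) (c : F) (ψ : AddChar F ℂ)
    (b₀ b₁ : Fin k → F) :
    wt ulHom χ (pc (chV ψ b₀) (chV ψ (b₁ + c • b₀))) = wt ulHom χ (pc (chV ψ b₀) (chV ψ b₁)) := by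
  let α : ((Fin k → F) × (Fin k → F)) ≃ ((Fin k → F) × (Fin k → F)) :=
    { toFun := fun y => (y.1 + c • y.2, y.2)
      invFun := fun y => (y.1 - c • y.2, y.2)
      left_inv := fun y => by simp
      right_inv := fun y => by simp }
  apply wt_conj ulHom χ α
  · rintro ⟨y₀, y₁⟩
    have h1 : uK c 0 * uK 0 (rows y₀ y₁) * (uK c (0 : Matrix (Fin 2) (Fin k) F))⁻¹ =
        uK 0 (rows (y₀ + c • y₁) y₁) := by
      apply conj_of_mul
      rw [uK_mul, uK_mul, tt_mul_rows, tt_zero]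
      simp
    rw [ulHom_apply y₀ y₁, ← hcl (uK 0 (rows y₀ y₁)) (uK c 0), h1]
    rfl
  · rintro ⟨y₀, y₁⟩
    show chV ψ _ y₀ * chV ψ _ y₁ = chV ψ b₀ (y₀ + c • y₁) * chV ψ b₁ y₁
    rw [chV_apply, chV_apply, chV_apply, chV_apply, dotProduct_add, add_dotProduct,
      AddChar.map_add_eq_mul, AddChar.map_add_eq_mul, dotProduct_smul, smul_dotProduct]
    ring

/-- invariance under the Weyl element -/
theorem N_w (χ : GG k F → ℂ) (hcl : IsClassFunction (GG k F) χ) (ψ : AddChar F ℂ)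
    (b₀ b₁ : Fin k → F) :
    wt ulHom χ (pc (chV ψ b₁) (chV ψ (-b₀))) = wt ulHom χ (pc (chV ψ b₀) (chV ψ b₁)) := by
  let α : ((Fin k → F) × (Fin k → F)) ≃ ((Fin k → F) × (Fin k → F)) :=
    { toFun := fun y => (-y.2, y.1)
      invFun := fun y => (y.2, -y.1)
      left_inv := fun y => by simp
      right_inv := fun y => by simp }
  have hdet : ((w2 : GL (Fin 2) F) : Matrix (Fin 2) (Fin 2) F).det *
      ((1 : GL (Fin k) F) : Matrix (Fin k) (Fin k) F).det = 1 := by
    rw [w2_coe, Matrix.det_fin_two_of]; simp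
  apply wt_conj ulHom χ α
  · rintro ⟨y₀, y₁⟩
    have h1 := lev_ul w2 1 hdet (rows y₀ y₁)
    have h2 : ((w2 : GL (Fin 2) F) : Matrix (Fin 2) (Fin 2) F) * rows y₀ y₁ = rows (-y₁) y₀ := by
      ext i j
      fin_cases i <;> simp [rows, w2_coe, Matrix.mul_apply, Fin.sum_univ_two]
    rw [h2, inv_one, Matrix.GeneralLinearGroup.coe_one, Matrix.mul_one] at h1
    rw [ulHom_apply y₀ y₁, ← hcl (uK 0 (rows y₀ y₁)) (lev w2 1 hdet), h1]
    rfl
  · rintro ⟨y₀, y₁⟩
    show chV ψ _ y₀ * chV ψ _ y₁ = chV ψ b₀ (-y₁) * chV ψ b₁ y₀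
    simp only [chV_apply]
    rw [dotProduct_neg, neg_dotProduct]
    ring


theorem chV_injective (ψ : AddChar F ℂ) (hψ : ψ.IsPrimitive) :
    Function.Injective (chV ψ : (Fin k → F) → AddChar (Fin k → F) ℂ) := by
  classical
  intro b b' h
  by_contra hne
  obtain ⟨i, hi⟩ : ∃ i, b i - b' i ≠ 0 := by
    by_contra hcon
    push Not at hcon
    exact hne (funext fun i => sub_eq_zero.mp (hcon i))
  apply hψ (a := b i - b' i) hi
  ext t
  rw [AddChar.mulShift_apply]
  have h1 := DFunLike.congr_fun h (Pi.single i t)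
  rw [chV_apply, chV_apply, single_dotProduct, single_dotProduct] at h1
  rw [sub_mul, sub_eq_add_neg, AddChar.map_add_eq_mul, mul_comm (b i), h1, ← AddChar.map_add_eq_mul,
    mul_comm (b' i), add_neg_cancel, AddChar.map_zero_eq_one]
  rfl

theorem chV_bijective (ψ : AddChar F ℂ) (hψ : ψ.IsPrimitive) :
    Function.Bijective (chV ψ : (Fin k → F) → AddChar (Fin k → F) ℂ) := by
  classical
  exact (Fintype.bijective_iff_injective_and_card _).mpr ⟨chV_injective ψ hψ, AddChar.card_eq.symm⟩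

theorem chV_zero (ψ : AddChar F ℂ) : chV ψ (0 : Fin k → F) = 0 := by
  ext y
  rw [chV_apply, dotProduct_zero, AddChar.map_zero_eq_one]
  rfl

/-- the combinatorial core -/
theorem comb (f : (Fin k → F) → ℕ) (b : Fin k → F) (hb : b ≠ 0)
    (hsum : ∑ v, f v = Fintype.card F) (htr : ∀ (v : Fin k → F) (c : F), f (v + c • b) = f v)
    (hmove : ∀ v, v ∉ Submodule.span F {b} → ∃ v', v' - v ∉ Submodule.span F {b} ∧ f v' = f v) :
    f 0 = 1 := by
  classical
  have hinj : ∀ v : Fin k → F, Function.Injective (fun c : F => v + c • b) := by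
    intro v c c' h
    have h1 : (c - c') • b = 0 := by
      rw [sub_smul, sub_eq_zero]
      exact add_left_cancel h
    rcases smul_eq_zero.mp h1 with h2 | h2
    · exact sub_eq_zero.mp h2
    · exact absurd h2 hb
  have hT : ∀ v : Fin k → F, ∑ x ∈ Finset.univ.image (fun c : F => v + c • b), f x =
      Fintype.card F * f v := by
    intro v
    rw [Finset.sum_image (fun c _ c' _ h => hinj v h), Finset.sum_congr rfl (fun c _ => htr v c),
      Finset.sum_const, Finset.card_univ, smul_eq_mul]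
  have hq : 0 < Fintype.card F := Fintype.card_pos
  have hvan : ∀ v, v ∉ Submodule.span F {b} → f v = 0 := by
    intro v hv
    obtain ⟨v', hv', hf⟩ := hmove v hv
    have hdisj : Disjoint (Finset.univ.image (fun c : F => v + c • b))
        (Finset.univ.image (fun c : F => v' + c • b)) := by
      rw [Finset.disjoint_left]
      intro x hx hx'
      obtain ⟨c, _, rfl⟩ := Finset.mem_image.mp hx
      obtain ⟨c', _, h⟩ := Finset.mem_image.mp hx'
      apply hv'
      rw [Submodule.mem_span_singleton]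
      refine ⟨c - c', ?_⟩
      rw [sub_smul]
      have : v' = v + c • b - c' • b := by rw [← h]; abel
      rw [this]; abel
    have h1 : ∑ x ∈ (Finset.univ.image (fun c : F => v + c • b)) ∪
        (Finset.univ.image (fun c : F => v' + c • b)), f x ≤ ∑ x, f x :=
      Finset.sum_le_sum_of_subset (Finset.subset_univ _)
    rw [Finset.sum_union hdisj, hT, hT, hf, hsum] at h1
    by_contra hne
    have : 1 ≤ f v := Nat.one_le_iff_ne_zero.mpr hne
    nlinarith
  have h2 : ∑ x, f x = ∑ x ∈ Finset.univ.image (fun c : F => (0 : Fin k → F) + c • b), f x := by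
    symm
    apply Finset.sum_subset (Finset.subset_univ _)
    intro x _ hx
    apply hvan
    intro hmem
    apply hx
    obtain ⟨c, rfl⟩ := Submodule.mem_span_singleton.mp hmem
    exact Finset.mem_image.mpr ⟨c, Finset.mem_univ _, by simp⟩
  rw [hT, hsum] at h2
  have : Fintype.card F * 1 = Fintype.card F * f 0 := by rw [mul_one]; exact h2
  exact (Nat.eq_of_mul_eq_mul_left hq this).symm


omit [Fintype F] in
theorem det_r1GL (u φ : Fin k → F) (h : 1 + φ ⬝ᵥ u ≠ 0) :
    (r1GL u φ h : Matrix (Fin k) (Fin k) F).det = 1 + φ ⬝ᵥ u := by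
  show (1 + vecMulVec u φ).det = _
  rw [vecMulVec_eq Unit, det_one_add_replicateCol_mul_replicateRow]

theorem ul_wt (k : ℕ) (hk : 1 ≤ k) (hex4 : k = 2 → ∃ t : F, t ≠ 0 ∧ t ^ 2 ≠ 1) (χ : GG k F → ℂ)
    (hχ : IsCharacter (GG k F) χ)
    (hr1 : ∀ l : AddChar (Fin k → F) ℂ, l ≠ 0 → wt r1Hom χ l = Fintype.card F)
    (β : AddChar (Fin k → F) ℂ) (hβ : β ≠ 0) : wt ulHom χ (pc 0 β) = 1 := by
  classical
  set ψ := AddChar.FiniteField.primitiveChar_to_Complex F with hψdef
  have hψ : ψ.IsPrimitive := AddChar.FiniteField.primitiveChar_to_Complex_isPrimitive F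
  have hcl := IsCharacter.isClassFunction hχ
  obtain ⟨b, rfl⟩ := (chV_bijective (k := k) ψ hψ).2 β
  have hb : b ≠ 0 := by
    rintro rfl
    exact hβ (chV_zero ψ)
  choose f hf using fun v : Fin k → F => wt_nat ulHom χ hχ (pc (chV ψ b) (chV ψ v))
  have hsum : ∑ v, f v = Fintype.card F := by
    have h1 : ((∑ v, f v : ℕ) : ℂ) = (Fintype.card F : ℂ) := by
      rw [← hr1 _ hβ, ← Cfsg.Agent.Lib.Helper76SLnnsum.ul_sum,
        ← (Equiv.ofBijective _ (chV_bijective (k := k) ψ hψ)).sum_comp]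
      push_cast
      exact Finset.sum_congr rfl (fun v _ => (hf v).symm)
    exact_mod_cast h1
  have htr : ∀ (v : Fin k → F) (c : F), f (v + c • b) = f v := by
    intro v c
    have : (f (v + c • b) : ℂ) = f v := by
      rw [← hf, ← hf, N_x χ hcl]
    exact_mod_cast this
  have hmove : ∀ v, v ∉ Submodule.span F {b} → ∃ v', v' - v ∉ Submodule.span F {b} ∧ f v' = f v := by
    intro v hv
    obtain ⟨η, hη1, hη0⟩ := Cfsg.Agent.Lib.Helper98MinDefs.exists_dual_pair hv
    rcases Nat.lt_or_ge k 3 with hlt | hge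
    · have hk2 : k = 2 := by
        by_contra hne
        have hk1 : k = 1 := by omega
        subst hk1
        apply hv
        rw [Submodule.mem_span_singleton]
        have hb0 : b 0 ≠ 0 := by
          intro h
          apply hb
          ext i
          rw [Subsingleton.elim i 0, h]; rfl
        refine ⟨v 0 * (b 0)⁻¹, ?_⟩
        ext i
        rw [Subsingleton.elim i 0]
        simp [hb0]
      obtain ⟨τ, hτ0, hτ2⟩ := hex4 hk2
      have hdet : 1 + η ⬝ᵥ ((τ - 1) • v) ≠ 0 := by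
        rw [dotProduct_smul, hη1]; simpa using hτ0
      refine ⟨τ • (τ • v), ?_, ?_⟩
      · intro hmem
        apply hv
        have h1 : τ • (τ • v) - v = (τ ^ 2 - 1) • v := by
          rw [smul_smul, sub_smul, one_smul, sq]
        rw [h1] at hmem
        have h2 : τ ^ 2 - 1 ≠ 0 := sub_ne_zero.mpr hτ2
        have := Submodule.smul_mem _ (τ ^ 2 - 1)⁻¹ hmem
        rwa [smul_smul, inv_mul_cancel₀ h2, one_smul] at this
      · have h1 := N_lev χ hcl (Units.mk0 τ hτ0) (r1GL ((τ - 1) • v) η hdet) (by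
          rw [det_r1GL, dotProduct_smul, hη1]; simp) ψ b v
        rw [r1GL_mulVec, r1GL_mulVec, hη0, hη1, zero_smul, add_zero, one_smul] at h1
        have h2 : v + (τ - 1) • v = τ • v := by rw [sub_smul, one_smul]; abel
        rw [h2, Units.val_mk0] at h1
        have : (f (τ • (τ • v)) : ℂ) = f v := by rw [← hf, ← hf, h1]
        exact_mod_cast this
    · obtain ⟨ζ, hζ1, _⟩ := Cfsg.Agent.Lib.Helper98MinDefs.exists_dual_pair
        (a := b) (b := (0 : Fin k → F)) (by simpa using hb)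
      obtain ⟨u, hu0, hu1, hu2⟩ := Cfsg.Agent.Lib.Helper98MinDefs.exists_perp2
        (by simpa using hge) η ζ
      have hdet : 1 + η ⬝ᵥ u ≠ 0 := by rw [hu1]; simp
      refine ⟨v + u, ?_, ?_⟩
      · intro hmem
        rw [add_sub_cancel_left, Submodule.mem_span_singleton] at hmem
        obtain ⟨t, ht⟩ := hmem
        apply hu0
        have h1 : t = 0 := by
          have := hu2
          rw [← ht, dotProduct_smul, hζ1] at this
          simpa using this
        rw [← ht, h1, zero_smul]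
      · have h1 := N_lev χ hcl 1 (r1GL u η hdet) (by
          rw [det_r1GL, hu1]; simp) ψ b v
        rw [r1GL_mulVec, r1GL_mulVec, hη0, hη1, zero_smul, add_zero, one_smul, Units.val_one,
          one_smul] at h1
        have : (f (v + u) : ℂ) = f v := by rw [← hf, ← hf, h1]
        exact_mod_cast this
  have h0 := comb f b hb hsum htr hmove
  have h1 := N_w χ hcl ψ 0 b
  rw [neg_zero, chV_zero] at h1
  rw [← h1, ← chV_zero ψ, hf, h0]
  simp

end Cfsg.Agent.Lib.Helper44SLulwt
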