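import Mathlib
import Cfsg.Agent.Lib.Helper44SLDefs
import Cfsg.Agent.Lib.Helper4Eigen

set_option autoImplicit false

/-! PROJECT 44, piece `gl2`. -/

namespace Cfsg.Agent.Lib.Helper67SLgl2

open Matrix Cfsg Cfsg.Agent.Lib.Helper44Wt Cfsg.Agent.Lib.Helper44SLDefs
  Cfsg.Agent.Lib.Helper4Char Cfsg.Agent.Lib.Helper4Char4

section lin
variable {G : Type*} [Group G] {A : Type*} [AddCommGroup A] [Fintype A]

theorem wt_lin {ι : Type*} (s : Finset ι) (c : ι → ℂ) (f : ι → G → ℂ)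
    (u : Multiplicative A →* G) (l : AddChar A ℂ) :
    wt u (∑ i ∈ s, c i • f i) l = ∑ i ∈ s, c i * wt u (f i) l := by
  unfold wt
  simp only [Finset.sum_apply, Pi.smul_apply, smul_eq_mul, Finset.sum_mul, Finset.mul_sum]
  rw [Finset.sum_comm]
  exact Finset.sum_congr rfl (fun i _ => Finset.sum_congr rfl (fun a _ => by ring))

theorem tw_lin {ι : Type*} (s : Finset ι) (c : ι → ℂ) (f : ι → G → ℂ)
    (u : Multiplicative A →* G) (w : G) :
    tw u w (∑ i ∈ s, c i • f i) = ∑ i ∈ s, c i * tw u w (f i) := by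
  unfold tw
  simp only [Finset.sum_apply, Pi.smul_apply, smul_eq_mul]
  have h1 : ∑ a : A, ∑ a' : A, ∑ i ∈ s, c i * f i (w * u (Multiplicative.ofAdd a') * w⁻¹ *
      u (Multiplicative.ofAdd a)) = ∑ i ∈ s, c i * ∑ a : A, ∑ a' : A,
      f i (w * u (Multiplicative.ofAdd a') * w⁻¹ * u (Multiplicative.ofAdd a)) := by
    simp only [Finset.mul_sum]
    calc ∑ a : A, ∑ a' : A, ∑ i ∈ s, c i * f i (w * u (Multiplicative.ofAdd a') * w⁻¹ *
          u (Multiplicative.ofAdd a))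
        = ∑ a : A, ∑ i ∈ s, ∑ a' : A, c i * f i (w * u (Multiplicative.ofAdd a') * w⁻¹ *
          u (Multiplicative.ofAdd a)) := Finset.sum_congr rfl (fun a _ => Finset.sum_comm)
      _ = _ := Finset.sum_comm
  rw [h1, Finset.mul_sum]
  exact Finset.sum_congr rfl (fun a _ => by ring)

/-- if all nontrivial weights vanish, `u` acts trivially and `tw = wt 0`. -/
theorem tw_eq_of_wt_zero [Finite G] (u : Multiplicative A →* G) (w : G) (χ : G → ℂ)
    (hχ : IsCharacter G χ) (h : ∀ l : AddChar A ℂ, l ≠ 0 → wt u χ l = 0) :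
    tw u w χ = wt u χ 0 := by
  have hn0 : (Fintype.card A : ℂ) ≠ 0 := by exact_mod_cast Fintype.card_ne_zero
  have hc := const_of_wt_zero u χ h
  obtain ⟨n, ρ, rfl⟩ := hχ
  have h1 : ∀ b : A, ρ (u (Multiplicative.ofAdd b)) = LinearMap.id := by
    intro b
    rw [← Cfsg.Agent.Lib.Helper4Eigen.char_eq_finrank_iff, hc b, Representation.char_one]
  have h2 : ∀ a a' : A, ρ.character (w * u (Multiplicative.ofAdd a') * w⁻¹ *
      u (Multiplicative.ofAdd a)) = ρ.character 1 := by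
    intro a a'
    unfold Representation.character
    congr 1
    rw [map_mul, map_mul, map_mul, h1, h1]
    have : ρ w * LinearMap.id * ρ w⁻¹ * LinearMap.id = ρ (w * w⁻¹) := by
      rw [map_mul]; rfl
    rw [this, mul_inv_cancel]
  unfold tw wt
  simp only [h2, hc, AddChar.zero_apply, map_one, mul_one, Finset.sum_const, Finset.card_univ,
    nsmul_eq_mul]
  field_simp

end lin

theorem exists_shift {F : Type*} [Field F] [Fintype F] (l l' : AddChar F ℂ) (hl : l ≠ 0)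
    (hl' : l' ≠ 0) : ∃ t : F, t ≠ 0 ∧ ∀ a, l' a = l (t * a) := by
  have hp : l.IsPrimitive := AddChar.IsPrimitive.of_ne_one (by rwa [AddChar.one_eq_zero])
  have hinj := AddChar.to_mulShift_inj_of_isPrimitive hp
  have hbij : Function.Bijective l.mulShift :=
    (Fintype.bijective_iff_injective_and_card _).mpr ⟨hinj, AddChar.card_eq.symm⟩
  obtain ⟨t, ht⟩ := hbij.2 l'
  refine ⟨t, ?_, ?_⟩
  · rintro rfl
    rw [AddChar.mulShift_zero, AddChar.one_eq_zero] at ht
    exact hl' ht.symm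
  · intro a
    rw [← ht, AddChar.mulShift_apply]

theorem wt_eq_of_ne_zero {Γ : Type*} [Group Γ] {F : Type*} [Field F] [Fintype F]
    (x : Multiplicative F →* Γ)
    (htor : ∀ t : F, t ≠ 0 → ∃ g : Γ, ∀ c : F,
      g * x (Multiplicative.ofAdd c) * g⁻¹ = x (Multiplicative.ofAdd (t * c)))
    (Y : Γ → ℂ) (hY : IsClassFunction Γ Y) (l l' : AddChar F ℂ) (hl : l ≠ 0) (hl' : l' ≠ 0) :
    wt x Y l' = wt x Y l := by
  obtain ⟨t, ht, hs⟩ := exists_shift l l' hl hl'
  obtain ⟨g, hg⟩ := htor t ht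
  refine wt_conj x Y (Equiv.mulLeft₀ t ht) ?_ l l' hs
  intro a
  show Y (x (Multiplicative.ofAdd (t * a))) = _
  rw [← hg, hY]

theorem gl2_part {Γ : Type*} [Group Γ] [Fintype Γ] {F : Type*} [Field F] [Fintype F]
    (x : Multiplicative F →* Γ) (w : Γ)
    (htor : ∀ t : F, t ≠ 0 → ∃ g : Γ, ∀ c : F,
      g * x (Multiplicative.ofAdd c) * g⁻¹ = x (Multiplicative.ofAdd (t * c)))
    (hsm : ∀ Y : Γ → ℂ, IsIrrCharacter Γ Y →
      (wt x Y 0) ^ 2 * ((Fintype.card F : ℂ) + 1) =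
        Y 1 * (wt x Y 0 + (Fintype.card F : ℂ) * tw x w Y))
    (ψ : Γ → ℂ) (hψ : IsCharacter Γ ψ) (s : ℕ) (h0 : wt x ψ 0 = s)
    (h1 : ∀ l : AddChar F ℂ, l ≠ 0 → wt x ψ l = 1) :
    ∃ (a : ℕ) (TX : ℂ), a ≤ s ∧ tw x w ψ = ((s : ℂ) - a) + TX ∧
      ((Fintype.card F : ℂ) + 1) * (a : ℂ) ^ 2 =
        ((a : ℂ) + Fintype.card F - 1) * ((a : ℂ) + Fintype.card F * TX) := by
  classical
  obtain ⟨l₀, hl₀⟩ := Fintype.exists_ne_of_one_lt_card
    (by rw [AddChar.card_eq]; exact Fintype.one_lt_card) (0 : AddChar F ℂ)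
  obtain ⟨m, hm, -⟩ := IsCharacter.eq_sum_nat hψ
  choose b hb using fun Y : IrrCharacter Γ =>
    wt_nat x (Y : Γ → ℂ) (IsIrrCharacter.isCharacter Y.2) l₀
  choose a0 ha0 using fun Y : IrrCharacter Γ =>
    wt_nat x (Y : Γ → ℂ) (IsIrrCharacter.isCharacter Y.2) 0
  have e1 : ∑ Y : IrrCharacter Γ, m Y * b Y = 1 := by
    have := h1 l₀ hl₀
    rw [hm, wt_lin] at this
    simp only [hb] at this
    exact_mod_cast this
  have e0 : ∑ Y : IrrCharacter Γ, m Y * a0 Y = s := by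
    have := h0
    rw [hm, wt_lin] at this
    simp only [ha0] at this
    exact_mod_cast this
  obtain ⟨X, hX⟩ : ∃ X : IrrCharacter Γ, m X * b X ≠ 0 := by
    by_contra hcon
    push Not at hcon
    rw [Finset.sum_eq_zero (fun Y _ => hcon Y)] at e1
    exact zero_ne_one e1
  have e1' := Finset.add_sum_erase Finset.univ (fun Y : IrrCharacter Γ => m Y * b Y)
    (Finset.mem_univ X)
  rw [e1] at e1'
  have hX1 : m X * b X = 1 := by
    have : 0 < m X * b X := Nat.pos_of_ne_zero hX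
    omega
  have hrest : ∑ Y ∈ Finset.univ.erase X, m Y * b Y = 0 := by omega
  have hmX : m X = 1 := Nat.eq_one_of_mul_eq_one_right hX1
  have hbX : b X = 1 := Nat.eq_one_of_mul_eq_one_left hX1
  have hrest' : ∀ Y ∈ Finset.univ.erase X, m Y * b Y = 0 :=
    (Finset.sum_eq_zero_iff.mp hrest)
  have e0' := Finset.add_sum_erase Finset.univ (fun Y : IrrCharacter Γ => m Y * a0 Y)
    (Finset.mem_univ X)
  rw [e0, hmX, one_mul] at e0'
  refine ⟨a0 X, tw x w (X : Γ → ℂ), by omega, ?_, ?_⟩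
  · rw [hm, tw_lin, ← Finset.add_sum_erase Finset.univ _ (Finset.mem_univ X), hmX]
    have h3 : ∑ Y ∈ Finset.univ.erase X, (m Y : ℂ) * tw x w (Y : Γ → ℂ) =
        ∑ Y ∈ Finset.univ.erase X, ((m Y * a0 Y : ℕ) : ℂ) := by
      apply Finset.sum_congr rfl
      intro Y hY
      rcases Nat.mul_eq_zero.mp (hrest' Y hY) with h | h
      · rw [h]; simp
      · rw [tw_eq_of_wt_zero x w (Y : Γ → ℂ) (IsIrrCharacter.isCharacter Y.2), ha0]
        · push_cast; ring
        · intro l hl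
          rw [wt_eq_of_ne_zero x htor (Y : Γ → ℂ) (IsIrrCharacter.isClassFunction Y.2) l₀ l hl₀ hl,
            hb, h]
          simp
    rw [h3, ← Nat.cast_sum]
    have : (s : ℂ) = (a0 X : ℂ) + ((∑ Y ∈ Finset.univ.erase X, m Y * a0 Y : ℕ) : ℂ) := by
      exact_mod_cast e0'.symm
    rw [this]
    push_cast
    ring
  · have hdeg : (X : Γ → ℂ) 1 = (a0 X : ℂ) + Fintype.card F - 1 := by
      rw [wt_sum x (X : Γ → ℂ), ← Finset.add_sum_erase Finset.univ _
        (Finset.mem_univ (0 : AddChar F ℂ)), ha0]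
      have h4 : ∀ l ∈ Finset.univ.erase (0 : AddChar F ℂ), wt x (X : Γ → ℂ) l = 1 := by
        intro l hl
        rw [wt_eq_of_ne_zero x htor (X : Γ → ℂ) (IsIrrCharacter.isClassFunction X.2) l₀ l hl₀
          (Finset.ne_of_mem_erase hl), hb, hbX]
        simp
      rw [Finset.sum_congr rfl h4, Finset.sum_const, Finset.card_erase_of_mem (Finset.mem_univ _),
        Finset.card_univ, AddChar.card_eq, nsmul_eq_mul, mul_one,
        Nat.cast_sub Fintype.card_pos]
      push_cast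
      ring
    have := hsm (X : Γ → ℂ) X.2
    rw [ha0, hdeg] at this
    linear_combination this

end Cfsg.Agent.Lib.Helper67SLgl2
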