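import Mathlib
import Cfsg.Agent.Lib.Helper44SLDefs

set_option autoImplicit false

namespace Cfsg.Agent.Lib.Helper75SLconst

open Matrix Cfsg Cfsg.Agent.Lib.Helper44Wt Cfsg.Agent.Lib.Helper44SLDefs

theorem wt_mul_card {G : Type*} [Group G] {A : Type*} [AddCommGroup A] [Fintype A]
    (u : Multiplicative A →* G) (χ : G → ℂ) (c : ℂ)
    (h : ∀ a : A, a ≠ 0 → χ (u (Multiplicative.ofAdd a)) = c) (l : AddChar A ℂ) :
    wt u χ l * Fintype.card A = χ 1 - c + c * (starRingEnd ℂ) (∑ a : A, l a) := by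
  classical
  have hq : (Fintype.card A : ℂ) ≠ 0 := by exact_mod_cast Fintype.card_ne_zero
  unfold wt
  rw [mul_comm, ← mul_assoc, mul_inv_cancel₀ hq, one_mul, map_sum, Finset.mul_sum]
  have h1 : ∀ a : A, χ (u (Multiplicative.ofAdd a)) * (starRingEnd ℂ) (l a) =
      (if a = 0 then χ 1 - c else 0) + c * (starRingEnd ℂ) (l a) := by
    intro a
    by_cases ha : a = 0
    · subst ha
      simp
    · rw [h a ha, if_neg ha, zero_add]
  simp only [h1]
  rw [Finset.sum_add_distrib, Finset.sum_ite_eq' Finset.univ (0 : A)]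
  simp

theorem wt_const {G : Type*} [Group G] {A : Type*} [AddCommGroup A] [Fintype A]
    (u : Multiplicative A →* G) (χ : G → ℂ) (c : ℂ)
    (h : ∀ a : A, a ≠ 0 → χ (u (Multiplicative.ofAdd a)) = c) :
    wt u χ 0 * Fintype.card A = χ 1 + ((Fintype.card A : ℂ) - 1) * c ∧
    ∀ l : AddChar A ℂ, l ≠ 0 → wt u χ l * Fintype.card A = χ 1 - c := by
  constructor
  · rw [wt_mul_card u χ c h]
    simp
    ring
  · intro l hl
    rw [wt_mul_card u χ c h, AddChar.sum_eq_zero_iff_ne_zero.2 hl]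
    simp

end Cfsg.Agent.Lib.Helper75SLconst
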