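import Mathlib

set_option autoImplicit false

namespace Cfsg.Agent.Lib.Helper75SLnum

theorem key_zero (q Ap m : ℤ) (hq : 2 ≤ q) (hAp : q ≤ Ap)
    (h : (q * (q * Ap) - 1) * m = (q * Ap - q) * (m + q * Ap - 1)) : False := by
  have hdvd : (q * Ap + 1) ∣ 2 * (q + 1) := by
    refine ⟨(q - 1) * m - (q * Ap - q - 2), ?_⟩
    linear_combination (-1 : ℤ) * h
  have hle : q * Ap + 1 ≤ 2 * (q + 1) := Int.le_of_dvd (by linarith) hdvd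
  have h2 : q * q ≤ q * Ap := by nlinarith
  have hq2 : q = 2 := by nlinarith
  subst hq2
  have hA2 : Ap = 2 := by linarith
  subst hA2
  norm_num at hdvd

theorem key_pos (q Ap m a : ℤ) (hq : 2 ≤ q) (hAp : q ≤ Ap) (ha : 1 ≤ a) (hm : 0 ≤ m)
    (h : (q * (q * Ap) - 1) * m * (a + q - 1) =
      (q * (a + q - 1) * (Ap - 1) + a * (q ^ 2 - 1)) * (m + q * Ap - 1)) :
    q * Ap - 1 ≤ (q - 1) * m := by
  by_contra hcon
  push Not at hcon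
  -- `M > q m`
  have hM : q * m + 1 ≤ m + q * Ap - 1 := by linarith
  have hd : 1 ≤ a + q - 1 := by linarith
  have hqA : 1 ≤ q * (q * Ap) - 1 := by nlinarith
  have hc : 1 ≤ (q * (q * Ap) - 1) * (a + q - 1) := by nlinarith
  have h1 : (q * (q * Ap) - 1) * (a + q - 1) * (q * m + 1) ≤
      (q * (q * Ap) - 1) * (a + q - 1) * (m + q * Ap - 1) :=
    mul_le_mul_of_nonneg_left hM (by linarith)
  have h2 : (q * (q * Ap) - 1) * (a + q - 1) ≤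
      q * (q * (a + q - 1) * (Ap - 1) + a * (q ^ 2 - 1)) := by
    have : 0 ≤ (a - 1) * (q - 1) * (q ^ 2 - 1) := by
      apply mul_nonneg (mul_nonneg (by linarith) (by linarith))
      nlinarith
    nlinarith
  have hMpos : 0 ≤ m + q * Ap - 1 := by nlinarith
  have h3 := mul_le_mul_of_nonneg_right h2 hMpos
  nlinarith

theorem numeric (q k m₀ s a N : ℕ) (hq : 2 ≤ q) (hk : 1 ≤ k) (hN : N * (q - 1) + 1 = q ^ (k + 2))
    (has : a ≤ s) (T2 TX : ℂ)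
    (h1 : (m₀ : ℂ) ^ 2 * N = ((m₀ : ℂ) + (q : ℂ) ^ (k + 1) - 1) * (m₀ + ((N : ℂ) - 1) * T2))
    (h2 : T2 = ((s : ℂ) - a) + TX)
    (h3 : ((q : ℂ) + 1) * (a : ℂ) ^ 2 = ((a : ℂ) + q - 1) * ((a : ℂ) + q * TX))
    (h4 : (s : ℂ) + (q : ℂ) ^ k = m₀ + 1) :
    q ^ (k + 1) - 1 ≤ (q - 1) * m₀ := by
  have hNc : (N : ℂ) * ((q : ℂ) - 1) + 1 = (q : ℂ) ^ (k + 2) := by
    have := congrArg (Nat.cast : ℕ → ℂ) hN
    push_cast [Nat.cast_sub (show 1 ≤ q by omega)] at this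
    exact this
  have hG : (q : ℂ) * ((q : ℂ) * (q : ℂ) ^ k - 1) *
      (((q : ℂ) * ((q : ℂ) * (q : ℂ) ^ k) - 1) * m₀ * ((a : ℂ) + q - 1) -
        ((q : ℂ) * ((a : ℂ) + q - 1) * ((q : ℂ) ^ k - 1) + a * ((q : ℂ) ^ 2 - 1)) *
          ((m₀ : ℂ) + (q : ℂ) * (q : ℂ) ^ k - 1)) = 0 := by
    linear_combination (-((q : ℂ) * ((a : ℂ) + q - 1) * ((q : ℂ) - 1))) * h1 +
      (q : ℂ) * ((a : ℂ) + q - 1) * ((m₀ : ℂ) ^ 2 - ((m₀ : ℂ) + (q : ℂ) * (q : ℂ) ^ k - 1) * T2) * hNc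
      - ((m₀ : ℂ) + (q : ℂ) * (q : ℂ) ^ k - 1) * q * ((q : ℂ) * (q : ℂ) ^ k - 1) * q *
          ((a : ℂ) + q - 1) * h2
      - ((m₀ : ℂ) + (q : ℂ) * (q : ℂ) ^ k - 1) * q * ((q : ℂ) * (q : ℂ) ^ k - 1) * q *
          ((a : ℂ) + q - 1) * h4
      + ((m₀ : ℂ) + (q : ℂ) * (q : ℂ) ^ k - 1) * q * ((q : ℂ) * (q : ℂ) ^ k - 1) * h3
  have hGz : (q : ℤ) * ((q : ℤ) * (q : ℤ) ^ k - 1) *
      (((q : ℤ) * ((q : ℤ) * (q : ℤ) ^ k) - 1) * m₀ * ((a : ℤ) + q - 1) -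
        ((q : ℤ) * ((a : ℤ) + q - 1) * ((q : ℤ) ^ k - 1) + a * ((q : ℤ) ^ 2 - 1)) *
          ((m₀ : ℤ) + (q : ℤ) * (q : ℤ) ^ k - 1)) = 0 := by
    exact_mod_cast hG
  have hqz : (2 : ℤ) ≤ q := by exact_mod_cast hq
  have hAp : (q : ℤ) ≤ (q : ℤ) ^ k := by
    calc (q : ℤ) = (q : ℤ) ^ 1 := (pow_one _).symm
      _ ≤ (q : ℤ) ^ k := pow_le_pow_right₀ (by linarith) hk
  have hne1 : (q : ℤ) * ((q : ℤ) * (q : ℤ) ^ k - 1) ≠ 0 := by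
    apply mul_ne_zero (by linarith)
    nlinarith
  have hE := sub_eq_zero.1 ((mul_eq_zero.1 hGz).resolve_left hne1)
  have hfin : (q : ℤ) * (q : ℤ) ^ k - 1 ≤ ((q : ℤ) - 1) * m₀ := by
    rcases Nat.eq_zero_or_pos a with ha | ha
    · exfalso
      subst ha
      apply key_zero (q : ℤ) ((q : ℤ) ^ k) m₀ hqz hAp
      have hq1 : ((q : ℤ) - 1) ≠ 0 := by linarith
      apply mul_right_cancel₀ hq1
      push_cast at hE
      linear_combination hE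
    · exact key_pos (q : ℤ) ((q : ℤ) ^ k) m₀ a hqz hAp (by exact_mod_cast ha) (by positivity) hE
  have h5 : ((q ^ (k + 1) - 1 : ℕ) : ℤ) ≤ (((q - 1) * m₀ : ℕ) : ℤ) := by
    have h6 : 1 ≤ q ^ (k + 1) := Nat.one_le_pow _ _ (by omega)
    push_cast [Nat.cast_sub h6, Nat.cast_sub (show 1 ≤ q by omega)]
    rw [pow_succ]
    linarith
  exact_mod_cast h5

end Cfsg.Agent.Lib.Helper75SLnum
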