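import Mathlib
import Cfsg.Agent.Lib.Helper44SLDefs
import Cfsg.Agent.Lib.Helper15SLnnhc
import Cfsg.Agent.Lib.Helper15SLnnoff
import Cfsg.Agent.Lib.Helper1SLgldata
import Cfsg.Agent.Lib.Helper40SLhc
import Cfsg.Agent.Lib.Helper40SLslidx
import Cfsg.Agent.Lib.Helper40SLslnorm
import Cfsg.Agent.Lib.Helper67SLgl2
import Cfsg.Agent.Lib.Helper67SLsm
import Cfsg.Agent.Lib.Helper75SLconst
import Cfsg.Agent.Lib.Helper75SLnum
import Cfsg.Agent.Lib.Helper76SLnnsum
import Cfsg.Agent.Lib.Helper76SLupconst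
import Cfsg.Agent.Lib.Helper44SLulwt
import Cfsg.Agent.Lib.Helper44SLtweq
import Cfsg.Agent.Lib.Helper44Ker
import Cfsg.Agent.Lib.Helper6SL
import Cfsg.Agent.S0249
import Cfsg.Agent.Lib.Helper83Char

set_option autoImplicit false

namespace Cfsg.Agent.Lib.Helper44SLMain

open Matrix Cfsg Cfsg.Agent.Lib.Helper44Wt Cfsg.Agent.Lib.Helper44SLDefs
  Cfsg.Agent.Lib.Helper44P1 Cfsg.Agent.Lib.Helper44GL2 Cfsg.Agent.Lib.Helper15SLnnhc Cfsg.Agent.Lib.Helper15SLnnoff Cfsg.Agent.Lib.Helper1SLgldata Cfsg.Agent.Lib.Helper40SLhc Cfsg.Agent.Lib.Helper40SLslidx Cfsg.Agent.Lib.Helper40SLslnorm Cfsg.Agent.Lib.Helper67SLgl2 Cfsg.Agent.Lib.Helper67SLsm Cfsg.Agent.Lib.Helper75SLconst Cfsg.Agent.Lib.Helper75SLnum Cfsg.Agent.Lib.Helper76SLnnsum Cfsg.Agent.Lib.Helper76SLupconst Cfsg.Agent.Lib.Helper44SLulwt Cfsg.Agent.Lib.Helper44SLtweq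
  Cfsg.Agent.Lib.Helper4Char Cfsg.Agent.Lib.Helper4Char4

variable {F : Type*} [Field F]

theorem up_not_central (k : ℕ) (hk : 1 ≤ k) :
    (upHom (Multiplicative.ofAdd ((1 : F), (0 : Fin k → F))) : GG k F) ∉
      Subgroup.center (GG k F) := by
  intro hc
  rw [Matrix.SpecialLinearGroup.mem_center_iff] at hc
  obtain ⟨r, _, hr⟩ := hc
  have h1 := congrFun (congrFun hr (Sum.inl 0)) (Sum.inl 1)
  rw [upHom_apply, uK, pel_coe] at h1
  simp [tt, Matrix.scalar_apply] at h1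

theorem pc_zero_zero {A₁ A₂ : Type*} [AddCommGroup A₁] [AddCommGroup A₂] :
    pc (0 : AddChar A₁ ℂ) (0 : AddChar A₂ ℂ) = 0 := by
  ext a
  simp [pc_apply]

theorem pc_ne_zero_left {A₁ A₂ : Type*} [AddCommGroup A₁] [AddCommGroup A₂]
    (l : AddChar A₁ ℂ) (hl : l ≠ 0) : pc l (0 : AddChar A₂ ℂ) ≠ 0 := by
  intro h
  apply hl
  ext a
  have := DFunLike.congr_fun h (a, (0 : A₂))
  simpa [pc_apply] using this


variable [Fintype F] [DecidableEq F]

theorem card_V (k : ℕ) : (Fintype.card (Fin k → F) : ℂ) = (Fintype.card F : ℂ) ^ k := by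
  rw [Fintype.card_fun, Fintype.card_fin]; push_cast; rfl

theorem card_FV (k : ℕ) : (Fintype.card (F × (Fin k → F)) : ℂ) = (Fintype.card F : ℂ) ^ (k + 1) := by
  rw [Fintype.card_prod, Nat.cast_mul, card_V, pow_succ, mul_comm]

/-- the case of multiplicity one -/
theorem core_one (m : ℕ)
    (hex3 : m + 1 = 1 → ∃ t : F, t ≠ 0 ∧ t ^ 3 ≠ 1) (hex4 : m + 1 = 2 → ∃ t : F, t ≠ 0 ∧ t ^ 2 ≠ 1)
    (χ : GG (m + 1) F → ℂ) (hχ : IsIrrCharacter (GG (m + 1) F) χ) (m₀ : ℕ)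
    (hm₀ : wt upHom χ 0 = m₀) (hw1 : ∀ l : AddChar (F × (Fin (m + 1) → F)) ℂ, l ≠ 0 → wt upHom χ l = 1)
    (hr1 : ∀ l : AddChar (Fin (m + 1) → F) ℂ, l ≠ 0 → wt r1Hom χ l = Fintype.card F)
    (hd : χ 1 = (m₀ : ℂ) + (Fintype.card F : ℂ) ^ (m + 2) - 1) :
    Fintype.card F ^ (m + 2) - 1 ≤ (Fintype.card F - 1) * m₀ := by
  classical
  set q := Fintype.card F with hq
  have hq2 : 2 ≤ q := Fintype.one_lt_card
  have hch := IsIrrCharacter.isCharacter hχ
  have hcl := IsIrrCharacter.isClassFunction hχ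
  -- naturality of `nn`
  have hnat : ∀ α β, ∃ n : ℕ, nn χ α β = n := by
    intro α β
    rw [nn_eq_wt_hc]
    exact wt_nat _ _ (hc_char χ hch upHom (pc α 0) r2Hom (r2_norm (m + 1) α)) β
  have hsumα : ∀ α : AddChar F ℂ, α ≠ 0 → ∑ β : AddChar (Fin (m + 1) → F) ℂ, nn χ α β = 1 := by
    intro α hα
    rw [nn_sum_right, hw1 _ (pc_ne_zero_left α hα)]
  have hoff : ∀ α : AddChar F ℂ, α ≠ 0 → ∀ β : AddChar (Fin (m + 1) → F) ℂ, β ≠ 0 → nn χ α β = 0 :=
    fun α hα β hβ => nn_off (m + 1) (by omega) hex3 χ hcl hnat α (hsumα α hα) β hβ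
  have hα0 : ∀ α : AddChar F ℂ, α ≠ 0 → nn χ α 0 = 1 := by
    intro α hα
    rw [← hsumα α hα]
    symm
    apply Finset.sum_eq_single
    · intro β _ hβ
      exact hoff α hα β hβ
    · intro h; exact absurd (Finset.mem_univ _) h
  have h0β : ∀ β : AddChar (Fin (m + 1) → F) ℂ, β ≠ 0 → nn χ 0 β = 1 := by
    intro β hβ
    rw [← ul_wt (m + 1) (by omega) hex4 χ hch hr1 β hβ, ← nn_sum_left]
    symm
    apply Finset.sum_eq_single
    · intro α _ hα
      exact hoff α hα β hβ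
    · intro h; exact absurd (Finset.mem_univ _) h
  obtain ⟨s, hs⟩ := hnat 0 0
  have hs4 : (s : ℂ) + (q : ℂ) ^ (m + 1) = m₀ + 1 := by
    have h1 := nn_sum_right (m + 1) χ 0
    rw [pc_zero_zero, hm₀, ← Finset.add_sum_erase _ _ (Finset.mem_univ (0 : AddChar (Fin (m + 1) → F) ℂ)),
      Finset.sum_congr rfl (fun β hβ => h0β β (Finset.ne_of_mem_erase hβ)), hs] at h1
    rw [Finset.sum_const, Finset.card_erase_of_mem (Finset.mem_univ _), Finset.card_univ,
      AddChar.card_eq, nsmul_eq_mul, mul_one, Nat.cast_sub Fintype.card_pos, card_V] at h1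
    rw [← h1]
    push_cast
    ring
  -- the `GL₂`-character
  set ψ₂ := hc ulHom 0 (jHom m) χ with hψ₂
  have hψc : IsCharacter (GL (Fin 2) F) ψ₂ := hc_char χ hch ulHom 0 (jHom m) (j_norm m)
  have hψ0 : wt xGL ψ₂ 0 = s := by rw [hψ₂, ← nn_zero, hs]
  have hψ1 : ∀ l : AddChar F ℂ, l ≠ 0 → wt xGL ψ₂ l = 1 := by
    intro l hl
    rw [hψ₂, ← nn_zero, hα0 l hl]
  have hsm2 : ∀ Y : GL (Fin 2) F → ℂ, IsIrrCharacter (GL (Fin 2) F) Y →
      (wt xGL Y 0) ^ 2 * ((Fintype.card F : ℂ) + 1) =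
        Y 1 * (wt xGL Y 0 + (Fintype.card F : ℂ) * tw xGL w2 Y) := by
    intro Y hY
    have := second_moment Y hY xGL xGL_injective (Bor (iG F)) gl_norm w2 gl_dc (Fintype.card F + 1)
      (index_Bor (iG F) hSL_G)
    push_cast at this
    rw [this]
    ring
  obtain ⟨a, TX, has, hT, h3⟩ := gl2_part xGL w2 gl_tor hsm2 ψ₂ hψc s hψ0 hψ1
  have hsm := second_moment χ hχ upHom (up_injective (m + 1)) (Ppt (m + 1) F) (sl_norm (m + 1))
    (jHom m w2) (sl_dc m) _ rfl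
  rw [hm₀, hd, tw_eq m χ hcl] at hsm
  exact numeric q (m + 1) m₀ s a _ hq2 (by omega) (sl_index (m + 1)) has _ TX hsm hT h3 hs4


theorem exists_addChar_ne_zero (A : Type*) [AddCommGroup A] [Fintype A] [Nontrivial A] :
    ∃ l : AddChar A ℂ, l ≠ 0 := by
  classical
  have h1 : 1 < Fintype.card (AddChar A ℂ) := by
    rw [AddChar.card_eq]; exact Fintype.one_lt_card
  obtain ⟨l, hl⟩ := Fintype.exists_ne_of_one_lt_card h1 (0 : AddChar A ℂ)
  exact ⟨l, hl⟩

theorem core (m : ℕ)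
    (hex3 : m + 1 = 1 → ∃ t : F, t ≠ 0 ∧ t ^ 3 ≠ 1) (hex4 : m + 1 = 2 → ∃ t : F, t ≠ 0 ∧ t ^ 2 ≠ 1)
    (χ : GG (m + 1) F → ℂ) (hχ : IsIrrCharacter (GG (m + 1) F) χ) (h1 : χ 1 ≠ 1) (d : ℕ)
    (hd : χ 1 = d) :
    Fintype.card F * (Fintype.card F ^ (m + 2) - 1) ≤ (Fintype.card F - 1) * d := by
  classical
  set q := Fintype.card F with hq
  have hq2 : 2 ≤ q := Fintype.one_lt_card
  have hch := IsIrrCharacter.isCharacter hχ
  have hcl := IsIrrCharacter.isClassFunction hχ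
  set a₁ : F × (Fin (m + 1) → F) := ((1 : F), (0 : Fin (m + 1) → F)) with ha₁
  have ha₁0 : a₁ ≠ 0 := by
    intro h
    have := congrArg Prod.fst h
    simp [ha₁] at this
  set χt := χ (upHom (Multiplicative.ofAdd a₁)) with hχt
  have hconst : ∀ a : F × (Fin (m + 1) → F), a ≠ 0 → χ (upHom (Multiplicative.ofAdd a)) = χt :=
    fun a ha => up_const (m + 1) (by omega) χ hcl a a₁ ha ha₁0
  obtain ⟨hw0, hwl⟩ := wt_const upHom χ χt hconst
  obtain ⟨m₀, hm₀⟩ := wt_nat upHom χ hch 0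
  obtain ⟨l₁, hl₁⟩ := exists_addChar_ne_zero (F × (Fin (m + 1) → F))
  obtain ⟨mm, hmm⟩ := wt_nat upHom χ hch l₁
  have hA : (Fintype.card (F × (Fin (m + 1) → F)) : ℂ) = (q : ℂ) ^ (m + 2) := card_FV (m + 1)
  have hqpos : (q : ℂ) ≠ 0 := by
    have : q ≠ 0 := by omega
    exact_mod_cast this
  have hApos : (q : ℂ) ^ (m + 2) ≠ 0 := pow_ne_zero _ hqpos
  rw [hA, hm₀, hd] at hw0
  have hwl1 := hwl l₁ hl₁
  rw [hA, hmm, hd] at hwl1
  -- `χt = d - mm A`, `d = m₀ + mm (A - 1)`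
  have hχt' : χt = d - mm * (q : ℂ) ^ (m + 2) := by linear_combination hwl1
  have hdC : (d : ℂ) = m₀ + mm * ((q : ℂ) ^ (m + 2) - 1) := by
    have h2 : (q : ℂ) ^ (m + 2) * ((d : ℂ) - (m₀ + mm * ((q : ℂ) ^ (m + 2) - 1))) = 0 := by
      rw [hχt'] at hw0
      linear_combination -hw0
    rcases mul_eq_zero.mp h2 with h | h
    · exact absurd h hApos
    · linear_combination h
  have hA1 : 1 ≤ q ^ (m + 2) := Nat.one_le_pow _ _ (by omega)
  have hdN : d = m₀ + mm * (q ^ (m + 2) - 1) := by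
    have : (d : ℂ) = ((m₀ + mm * (q ^ (m + 2) - 1) : ℕ) : ℂ) := by
      rw [hdC]; push_cast [Nat.cast_sub hA1]; ring
    exact_mod_cast this
  rcases Nat.lt_or_ge mm 2 with hlt | hge
  · interval_cases mm
    · -- `mm = 0`
      exfalso
      apply up_not_central (F := F) (m + 1) (by omega)
      apply Cfsg.Agent.Lib.Helper44Ker.mem_center_of_char_eq
        (Cfsg.Agent.S0249.PSL_simple (by simp; omega))
        (Cfsg.Agent.Lib.Helper6SL.commutator_SL_eq_top (by simp; omega)) χ hχ h1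
      rw [← ha₁, ← hχt, hχt', hd]
      simp
    · -- `mm = 1`
      have hw1 : ∀ l : AddChar (F × (Fin (m + 1) → F)) ℂ, l ≠ 0 → wt upHom χ l = 1 := by
        intro l hl
        have h2 := hwl l hl
        rw [hA, hd, hχt'] at h2
        have h3 : (q : ℂ) ^ (m + 2) * (wt upHom χ l - 1) = 0 := by
          linear_combination h2
        rcases mul_eq_zero.mp h3 with h | h
        · exact absurd h hApos
        · linear_combination h
      have hr1 : ∀ l : AddChar (Fin (m + 1) → F) ℂ, l ≠ 0 → wt r1Hom χ l = Fintype.card F := by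
        intro l hl
        have hc1 : ∀ y : Fin (m + 1) → F, y ≠ 0 → χ (r1Hom (Multiplicative.ofAdd y)) = χt := by
          intro y hy
          have := hconst ((0 : F), y) (by
            intro h
            exact hy (congrArg Prod.snd h))
          rw [upHom_apply] at this
          rw [r1Hom_apply, this]
        have h2 := (wt_const r1Hom χ χt hc1).2 l hl
        rw [card_V, hd, hχt'] at h2
        have hV : (q : ℂ) ^ (m + 1) ≠ 0 := pow_ne_zero _ hqpos
        have h3 : (q : ℂ) ^ (m + 1) * (wt r1Hom χ l - q) = 0 := by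
          rw [← hq] at h2
          linear_combination h2
        rcases mul_eq_zero.mp h3 with h | h
        · exact absurd h hV
        · linear_combination h
      have hd' : χ 1 = (m₀ : ℂ) + (Fintype.card F : ℂ) ^ (m + 2) - 1 := by
        rw [hd, hdC]; push_cast; ring
      have key := core_one m hex3 hex4 χ hχ m₀ hm₀ hw1 hr1 hd'
      rw [← hq] at key
      rw [hdN, one_mul, Nat.mul_add]
      obtain ⟨r, hr⟩ : ∃ r, q = r + 1 := ⟨q - 1, by omega⟩
      have h5 : q - 1 = r := by omega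
      rw [h5] at key ⊢
      generalize q ^ (m + 2) - 1 = B at key ⊢
      rw [hr]
      nlinarith
  · -- `mm ≥ 2`
    rw [hdN]
    obtain ⟨r, hr⟩ : ∃ r, q = r + 1 := ⟨q - 1, by omega⟩
    have h5 : q - 1 = r := by omega
    have hr1 : 1 ≤ r := by omega
    rw [h5]
    generalize q ^ (m + 2) - 1 = B
    rw [hr]
    have h6 : 2 * B ≤ mm * B := Nat.mul_le_mul_right _ hge
    have h7 : r * (2 * B) ≤ r * (m₀ + mm * B) := Nat.mul_le_mul_left _ (by omega)
    nlinarith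


/-- reindexing of special linear groups -/
def slReindex {ι κ : Type*} [Fintype ι] [DecidableEq ι] [Fintype κ] [DecidableEq κ] (e : ι ≃ κ) :
    Matrix.SpecialLinearGroup ι F ≃* Matrix.SpecialLinearGroup κ F where
  toFun g := ⟨Matrix.reindex e e (g : Matrix ι ι F), by
    rw [Matrix.det_reindex_self]; exact g.2⟩
  invFun g := ⟨Matrix.reindex e.symm e.symm (g : Matrix κ κ F), by
    rw [Matrix.det_reindex_self]; exact g.2⟩
  left_inv g := by
    apply Subtype.ext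
    simp
  right_inv g := by
    apply Subtype.ext
    simp
  map_mul' g h := by
    apply Subtype.ext
    show Matrix.reindex e e ((g * h : Matrix.SpecialLinearGroup ι F) : Matrix ι ι F) =
      Matrix.reindex e e (g : Matrix ι ι F) * Matrix.reindex e e (h : Matrix ι ι F)
    rw [Matrix.SpecialLinearGroup.coe_mul, Matrix.reindex_apply, Matrix.reindex_apply,
      Matrix.reindex_apply, Matrix.submatrix_mul_equiv]

omit [DecidableEq F] in
theorem exists_pow_ne_one (e : ℕ) (h : ¬ (Fintype.card F - 1 ∣ e)) : ∃ t : F, t ≠ 0 ∧ t ^ e ≠ 1 := by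
  classical
  obtain ⟨g, hg⟩ := IsCyclic.exists_generator (α := Fˣ)
  refine ⟨(g : F), g.ne_zero, fun h1 => h ?_⟩
  have h2 : g ^ e = 1 := by
    apply Units.ext
    simpa using h1
  have h3 := orderOf_dvd_of_pow_eq_one h2
  rwa [orderOf_eq_card_of_forall_mem_zpowers hg, Nat.card_eq_fintype_card, Fintype.card_units] at h3

theorem sl_bound (n : ℕ) (hn : 3 ≤ n)
    (hex : (n, Fintype.card F) ≠ (3, 2) ∧ (n, Fintype.card F) ≠ (3, 4) ∧
      (n, Fintype.card F) ≠ (4, 2) ∧ (n, Fintype.card F) ≠ (4, 3))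
    (χ : Matrix.SpecialLinearGroup (Fin n) F → ℂ)
    (hχ : IsIrrCharacter (Matrix.SpecialLinearGroup (Fin n) F) χ) (h1 : χ 1 ≠ 1) (d : ℕ)
    (hd : χ 1 = d) :
    (Fintype.card F ^ n - Fintype.card F) / (Fintype.card F - 1) ≤ d := by
  obtain ⟨m, rfl⟩ : ∃ m, n = m + 3 := ⟨n - 3, by omega⟩
  have hq2 : 2 ≤ Fintype.card F := Fintype.one_lt_card
  have e0 : Fin 2 ⊕ Fin (m + 1) ≃ Fin (m + 3) :=
    finSumFinEquiv.trans (finCongr (by omega))
  have hχ' := Cfsg.Agent.Lib.Helper83Char.irr_comp_mulEquiv (slReindex (F := F) e0) hχ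
  have hex3 : m + 1 = 1 → ∃ t : F, t ≠ 0 ∧ t ^ 3 ≠ 1 := by
    intro hm
    have hm0 : m = 0 := by omega
    subst hm0
    apply exists_pow_ne_one
    intro hdvd
    have h3 := Nat.le_of_dvd (by norm_num) hdvd
    have hc2 : Fintype.card F ≠ 2 := fun h => hex.1 (by rw [h])
    have hc4 : Fintype.card F ≠ 4 := fun h => hex.2.1 (by rw [h])
    have hc3 : Fintype.card F = 3 := by omega
    rw [hc3] at hdvd
    norm_num at hdvd
  have hex4 : m + 1 = 2 → ∃ t : F, t ≠ 0 ∧ t ^ 2 ≠ 1 := by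
    intro hm
    have hm0 : m = 1 := by omega
    subst hm0
    apply exists_pow_ne_one
    intro hdvd
    have h3 := Nat.le_of_dvd (by norm_num) hdvd
    have hc2 : Fintype.card F ≠ 2 := fun h => hex.2.2.1 (by rw [h])
    have hc3 : Fintype.card F ≠ 3 := fun h => hex.2.2.2 (by rw [h])
    omega
  have key := core m hex3 hex4 _ hχ' (by simpa using h1) d (by simpa using hd)
  apply Nat.div_le_of_le_mul
  calc Fintype.card F ^ (m + 3) - Fintype.card F
      = Fintype.card F * (Fintype.card F ^ (m + 2) - 1) := by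
        rw [Nat.mul_sub, mul_one, ← pow_succ']
    _ ≤ (Fintype.card F - 1) * d := key

end Cfsg.Agent.Lib.Helper44SLMain
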