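import Mathlib
import Cfsg.Agent.Lib.Helper44ODefs
import Cfsg.Agent.Lib.Helper44SLMain

set_option autoImplicit false

namespace Cfsg.Agent.Lib.Helper44Oslchar

open Matrix Cfsg Cfsg.Agent.Lib.Helper4Char Cfsg.Agent.Lib.Helper4Char2 Cfsg.Agent.Lib.Helper4Char4

theorem lin_const {G : Type*} [Group G] (hperf : commutator G = ⊤) (Y : G → ℂ)
    (hY : IsCharacter G Y) (h1 : Y 1 = 1) (g : G) : Y g = 1 := by
  obtain ⟨d, ρ, rfl⟩ := hY
  rw [Representation.char_one] at h1
  have hd : d = 1 := by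
    have : (Module.finrank ℂ (Fin d → ℂ) : ℂ) = 1 := h1
    rw [Module.finrank_fin_fun] at this
    exact_mod_cast this
  subst hd
  set φ : G →* ℂ := (LinearMap.det : ((Fin 1 → ℂ) →ₗ[ℂ] (Fin 1 → ℂ)) →* ℂ).comp ρ with hφ
  have hchar : ∀ x, ρ.character x = φ x := by
    intro x
    rw [hφ, MonoidHom.comp_apply, ← LinearMap.det_toMatrix', Matrix.det_fin_one]
    unfold Representation.character
    rw [LinearMap.trace_eq_matrix_trace ℂ (Pi.basisFun ℂ (Fin 1)), Matrix.trace_fin_one]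
    rfl
  have htop : MonoidHom.ker φ = ⊤ := by
    rw [eq_top_iff, ← hperf, commutator_eq_closure, Subgroup.closure_le]
    rintro _ ⟨x, y, rfl⟩
    rw [SetLike.mem_coe, MonoidHom.mem_ker, commutatorElement_def, map_mul, map_mul, map_mul,
      mul_comm (φ x) (φ y), ← map_mul, ← map_mul, ← map_mul]
    have : y * x * x⁻¹ * y⁻¹ = 1 := by group
    rw [this, map_one]
  have : g ∈ MonoidHom.ker φ := by rw [htop]; trivial
  rw [hchar, MonoidHom.mem_ker.mp this]

variable {F : Type*} [Field F] [Fintype F] [DecidableEq F]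

theorem sl_char_bound (n : ℕ) (hn : 4 ≤ n) (hq : 3 < Fintype.card F)
    (θ : Matrix.SpecialLinearGroup (Fin n) F → ℂ)
    (hθ : IsCharacter (Matrix.SpecialLinearGroup (Fin n) F) θ)
    (x : Matrix.SpecialLinearGroup (Fin n) F) (hx : θ x ≠ θ 1) (d : ℕ) (hd : θ 1 = d) :
    (Fintype.card F ^ n - Fintype.card F) / (Fintype.card F - 1) ≤ d := by
  classical
  have hperf : commutator (Matrix.SpecialLinearGroup (Fin n) F) = ⊤ :=
    Cfsg.Agent.Lib.Helper6SL.commutator_SL_eq_top (by simp; omega)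
  obtain ⟨m, hm, -⟩ := IsCharacter.eq_sum_nat hθ
  choose e he using fun Y : IrrCharacter (Matrix.SpecialLinearGroup (Fin n) F) =>
    IsCharacter.exists_degree (IsIrrCharacter.isCharacter Y.2)
  have hval : ∀ g, θ g = ∑ Y : IrrCharacter (Matrix.SpecialLinearGroup (Fin n) F),
      (m Y : ℂ) * (Y : Matrix.SpecialLinearGroup (Fin n) F → ℂ) g := by
    intro g
    rw [hm]
    simp [Finset.sum_apply]
  obtain ⟨Y, hY0, hY1⟩ : ∃ Y : IrrCharacter (Matrix.SpecialLinearGroup (Fin n) F),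
      m Y ≠ 0 ∧ (Y : Matrix.SpecialLinearGroup (Fin n) F → ℂ) 1 ≠ 1 := by
    by_contra hcon
    push Not at hcon
    apply hx
    rw [hval, hval]
    apply Finset.sum_congr rfl
    intro Y _
    by_cases h0 : m Y = 0
    · rw [h0]; simp
    · rw [lin_const hperf _ (IsIrrCharacter.isCharacter Y.2) (hcon Y h0) x, hcon Y h0]
  have hb := Cfsg.Agent.Lib.Helper44SLMain.sl_bound n (by omega)
    ⟨by intro h; simp only [Prod.mk.injEq] at h; omega, by intro h; simp only [Prod.mk.injEq] at h; omega,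
      by intro h; simp only [Prod.mk.injEq] at h; omega, by intro h; simp only [Prod.mk.injEq] at h; omega⟩
    (Y : Matrix.SpecialLinearGroup (Fin n) F → ℂ) Y.2 hY1 (e Y) (he Y)
  refine hb.trans ?_
  have hdN : d = ∑ Z : IrrCharacter (Matrix.SpecialLinearGroup (Fin n) F), m Z * e Z := by
    have h2 := hval 1
    rw [hd] at h2
    simp only [he] at h2
    exact_mod_cast h2
  rw [hdN]
  calc e Y ≤ m Y * e Y := Nat.le_mul_of_pos_left _ (Nat.pos_of_ne_zero hY0)
    _ ≤ _ := Finset.single_le_sum (f := fun Z => m Z * e Z) (fun _ _ => Nat.zero_le _)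
      (Finset.mem_univ Y)

end Cfsg.Agent.Lib.Helper44Oslchar
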