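import Mathlib
import Cfsg.Agent.Lib.Helper44ODefs
import Cfsg.Agent.Lib.Helper44SLMain

set_option autoImplicit false

namespace Cfsg.Agent.Lib.Helper44Oumem

open Matrix Cfsg Cfsg.Agent.Lib.Helper44ODefs

variable {F : Type*} [Field F] [Fintype F]

theorem comm_mem {G : Type*} [Group G] (a b : G) : a * b * a⁻¹ * b⁻¹ ∈ commutator G := by
  rw [commutator_def]
  exact Subgroup.commutator_mem_commutator (Subgroup.mem_top a) (Subgroup.mem_top b)

theorem uI_mem (n : ℕ) (hq : 3 < Fintype.card F) (X : Multiplicative (Matrix (Fin n) (Fin n) F)) :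
    uI X ∈ Cfsg.Omega F (Cfsg.quadFormPlus n F) := by
  obtain ⟨a, ha0, ha⟩ : ∃ a : F, a ≠ 0 ∧ a ^ 2 ≠ 1 :=
    Cfsg.Agent.Lib.Helper44SLMain.exists_pow_ne_one 2 (by
      intro h
      have := Nat.le_of_dvd (by norm_num) h
      omega)
  set A : GL (Fin n) F := Units.map (Matrix.scalar (Fin n)).toMonoidHom (Units.mk0 a ha0) with hA
  have hAc : (A : Matrix (Fin n) (Fin n) F) = Matrix.scalar (Fin n) a := rfl
  have hne : a ^ 2 - 1 ≠ 0 := sub_ne_zero.mpr ha
  set Y : Matrix (Fin n) (Fin n) F := (a ^ 2 - 1)⁻¹ • Multiplicative.toAdd X with hY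
  have key : gI A * uI (Multiplicative.ofAdd Y) * (gI A)⁻¹ * (uI (Multiplicative.ofAdd Y))⁻¹ =
      uI X := by
    rw [gI_mul_uI, mul_inv_cancel_right, ← map_inv, ← map_mul]
    congr 1
    rw [← ofAdd_neg, ← ofAdd_add]
    apply Multiplicative.toAdd.injective
    rw [toAdd_ofAdd, hAc]
    have h1 : Matrix.scalar (Fin n) a * Y * (Matrix.scalar (Fin n) a)ᵀ = (a ^ 2) • Y := by
      ext i j
      simp [Matrix.scalar_apply, Matrix.diagonal_transpose]
      ring
    rw [h1, hY]
    ext i j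
    simp only [Matrix.add_apply, Matrix.smul_apply, Matrix.neg_apply, smul_eq_mul]
    field_simp
    ring
  rw [← key]
  exact comm_mem _ _

end Cfsg.Agent.Lib.Helper44Oumem
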