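import Mathlib
import Cfsg.Agent.Lib.Helper44ODefs
import Cfsg.Agent.Lib.Helper49Witt2
import Cfsg.Agent.Lib.Helper49Rank
import Cfsg.Agent.Lib.Helper49Forms
import Cfsg.Agent.Lib.Helper7QForms

set_option autoImplicit false

/-! PROJECT 46, piece `sscard`: the number of ordered pairs spanning a totally singular line. -/

namespace Cfsg.Agent.Lib.Helper73Osscard

open Matrix Cfsg Cfsg.Agent.Lib.Helper44Wt Cfsg.Agent.Lib.Helper44Lam
  Cfsg.Agent.Lib.Helper44SLDefs Cfsg.Agent.Lib.Helper44ODefs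
  Cfsg.Agent.Lib.Helper49Forms Cfsg.Agent.Lib.Helper49Orth

variable {F : Type*} [Field F]

theorem mem_SS {n : ℕ} (p : (Fin n ⊕ Fin n → F) × (Fin n ⊕ Fin n → F)) :
    p ∈ SS n F ↔ QPlus n F p.1 = 0 ∧ QPlus n F p.2 = 0 ∧
      QuadraticMap.polar (QPlus n F) p.1 p.2 = 0 ∧ LinearIndependent F ![p.1, p.2] := by
  rw [coe_QPlus]
  rfl

theorem SS_closed (n : ℕ) : ∀ p ∈ SS n F, ∀ a b c d : F, a * d - b * c = 1 →
      (a • p.1 + b • p.2, c • p.1 + d • p.2) ∈ SS n F := by
  rintro ⟨u, v⟩ hp a b c d hdet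
  rw [mem_SS] at hp ⊢
  obtain ⟨hu, hv, huv, hli⟩ := hp
  simp only at hu hv huv hli ⊢
  have hvu : QuadraticMap.polar (QPlus n F) v u = 0 := by rw [QuadraticMap.polar_comm]; exact huv
  have huu : QuadraticMap.polar (QPlus n F) u u = 0 := by
    rw [QuadraticMap.polar_self, hu]; simp
  have hvv : QuadraticMap.polar (QPlus n F) v v = 0 := by
    rw [QuadraticMap.polar_self, hv]; simp
  have hQ : ∀ s t : F, QPlus n F (s • u + t • v) = 0 := by
    intro s t
    rw [Q_add, QuadraticMap.map_smul, QuadraticMap.map_smul, hu, hv,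
      QuadraticMap.polar_smul_left, QuadraticMap.polar_smul_right, huv]
    simp
  refine ⟨hQ a b, hQ c d, ?_, ?_⟩
  · rw [QuadraticMap.polar_add_left, QuadraticMap.polar_add_right, QuadraticMap.polar_add_right]
    simp only [QuadraticMap.polar_smul_left, QuadraticMap.polar_smul_right, huv, hvu, huu, hvv]
    simp
  · rw [LinearIndependent.pair_iff] at hli ⊢
    intro s t hst
    have h := hli (s * a + t * c) (s * b + t * d) (by
      rw [← hst]; module)
    obtain ⟨h1, h2⟩ := h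
    constructor
    · linear_combination d * h1 - c * h2 - s * hdet
    · linear_combination a * h2 - b * h1 - t * hdet

/-- the second members of the pairs with first member `u`. -/
def TT (n : ℕ) (u : Fin n ⊕ Fin n → F) : Set (Fin n ⊕ Fin n → F) :=
  {v | QPlus n F v = 0 ∧ QuadraticMap.polar (QPlus n F) u v = 0 ∧ LinearIndependent F ![u, v]}

/-- pairs as a sigma type -/
def SSequiv (n : ℕ) :
    SS n F ≃ Σ u : {u : Fin n ⊕ Fin n → F // QPlus n F u = 0 ∧ u ≠ 0}, TT n u.1 where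
  toFun p := ⟨⟨p.1.1, ((mem_SS _).1 p.2).1, ((mem_SS _).1 p.2).2.2.2.ne_zero 0⟩,
    ⟨p.1.2, ((mem_SS _).1 p.2).2.1, ((mem_SS _).1 p.2).2.2.1, ((mem_SS _).1 p.2).2.2.2⟩⟩
  invFun s := ⟨(s.1.1, s.2.1), (mem_SS _).2 ⟨s.1.2.1, s.2.2.1, s.2.2.2.1, s.2.2.2.2⟩⟩
  left_inv _ := rfl
  right_inv _ := rfl

variable [Fintype F] [DecidableEq F]

theorem TT_le (n : ℕ) {x y : Fin n ⊕ Fin n → F} (hx : x ≠ 0) (hy : y ≠ 0)
    (hQx : QPlus n F x = 0) (hQy : QPlus n F y = 0) :
    Nat.card (TT n x) ≤ Nat.card (TT n y) := by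
  obtain ⟨g, -, hg⟩ := Cfsg.Agent.Lib.Helper49Witt2.witt_core (QPlus n F)
    (Cfsg.Agent.Lib.Helper49Rank.QPlus_nondegenerate n) ⊥ (x := x) (y := y)
    (by simpa using hx) (by simpa using hy) (by rw [hQx, hQy]) (by
      intro h hh
      rw [Submodule.mem_bot] at hh
      subst hh
      simp)
  have hinj : ∀ a b : Fin n ⊕ Fin n → F,
      ((g : Matrix.GeneralLinearGroup (Fin n ⊕ Fin n) F) : Matrix (Fin n ⊕ Fin n) (Fin n ⊕ Fin n) F) *ᵥ a =
        ((g : Matrix.GeneralLinearGroup (Fin n ⊕ Fin n) F) : Matrix (Fin n ⊕ Fin n) (Fin n ⊕ Fin n) F) *ᵥ b → a = b := by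
    intro a b hab
    rw [← Cfsg.Agent.Lib.Helper49Eich.inv_mulVec_mulVec (QPlus n F) g a, hab,
      Cfsg.Agent.Lib.Helper49Eich.inv_mulVec_mulVec]
  refine Nat.card_le_card_of_injective
    (fun v : TT n x => (⟨((g : Matrix.GeneralLinearGroup (Fin n ⊕ Fin n) F) : Matrix (Fin n ⊕ Fin n) (Fin n ⊕ Fin n) F) *ᵥ v.1, ?_⟩ : TT n y))
    ?_
  · obtain ⟨v, hv1, hv2, hv3⟩ := v
    refine ⟨?_, ?_, ?_⟩
    · rw [iso_apply (Q := ⇑(QPlus n F))]; exact hv1
    · rw [← hg, polar_iso]; exact hv2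
    · rw [LinearIndependent.pair_iff] at hv3 ⊢
      intro s t hst
      apply hv3 s t
      apply hinj
      rw [Matrix.mulVec_add, Matrix.mulVec_smul, Matrix.mulVec_smul, hg, Matrix.mulVec_zero]
      exact hst
  · intro a b hab
    apply Subtype.ext
    apply hinj
    exact congrArg Subtype.val hab

/-- forget the first hyperbolic pair -/
def down {m : ℕ} (v : Fin (m + 1) ⊕ Fin (m + 1) → F) : Fin m ⊕ Fin m → F :=
  Sum.elim (fun j => v (Sum.inl j.succ)) (fun j => v (Sum.inr j.succ))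

/-- add a hyperbolic pair with coordinates `(a, 0)`. -/
def up {m : ℕ} (a : F) (w : Fin m ⊕ Fin m → F) : Fin (m + 1) ⊕ Fin (m + 1) → F :=
  Sum.elim (Fin.cons a (fun j => w (Sum.inl j))) (Fin.cons 0 (fun j => w (Sum.inr j)))

omit [Fintype F] [DecidableEq F] in
theorem down_up {m : ℕ} (a : F) (w : Fin m ⊕ Fin m → F) : down (up a w) = w := by
  funext i
  rcases i with i | i <;> simp [down, up]

omit [Fintype F] [DecidableEq F] in
theorem up_down {m : ℕ} (v : Fin (m + 1) ⊕ Fin (m + 1) → F) (h : v (Sum.inr 0) = 0) :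
    up (v (Sum.inl 0)) (down v) = v := by
  funext i
  rcases i with i | i
  · refine Fin.cases ?_ (fun j => ?_) i <;> simp [down, up]
  · refine Fin.cases ?_ (fun j => ?_) i <;> simp [down, up, h]

omit [Fintype F] [DecidableEq F] in
theorem polar_e (m : ℕ) (v : Fin (m + 1) ⊕ Fin (m + 1) → F) :
    QuadraticMap.polar (QPlus (m + 1) F) (Pi.single (Sum.inl 0) 1) v = v (Sum.inr 0) := by
  have := (hypPair_QPlus (F := F) (m + 1) 0).polar_st 1 0 v
  simpa using this

omit [Fintype F] [DecidableEq F] in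
theorem Q_succ (m : ℕ) (v : Fin (m + 1) ⊕ Fin (m + 1) → F) :
    QPlus (m + 1) F v = v (Sum.inl 0) * v (Sum.inr 0) + QPlus m F (down v) := by
  rw [coe_QPlus, coe_QPlus]
  simp [Cfsg.quadFormPlus, Fin.sum_univ_succ, down]

omit [Fintype F] [DecidableEq F] in
theorem li_iff (m : ℕ) (v : Fin (m + 1) ⊕ Fin (m + 1) → F) (h : v (Sum.inr 0) = 0) :
    LinearIndependent F ![Pi.single (Sum.inl 0) (1 : F), v] ↔ down v ≠ 0 := by
  rw [LinearIndependent.pair_iff]
  constructor
  · intro hli hd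
    have hv : v = v (Sum.inl 0) • Pi.single (Sum.inl 0) (1 : F) := by
      rw [← up_down v h, hd]
      funext i
      rcases i with i | i
      · refine Fin.cases ?_ (fun j => ?_) i
        · simp [up]
        · simp [up]
      · refine Fin.cases ?_ (fun j => ?_) i <;> simp [up]
    have := (hli (v (Sum.inl 0)) (-1) (by rw [neg_smul, one_smul, ← hv, add_neg_cancel])).2
    simp at this
  · intro hd s t hst
    have h1 : t • down v = 0 := by
      funext i
      rcases i with i | i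
      · have := congrFun hst (Sum.inl i.succ)
        simpa [down, Pi.single_apply] using this
      · have := congrFun hst (Sum.inr i.succ)
        simpa [down, Pi.single_apply] using this
    have ht : t = 0 := (smul_eq_zero.1 h1).resolve_right hd
    refine ⟨?_, ht⟩
    have := congrFun hst (Sum.inl 0)
    simpa [ht] using this

/-- the fibre over the first basis vector -/
def TTequiv (m : ℕ) : TT (m + 1) (Pi.single (Sum.inl 0) (1 : F)) ≃
    F × {w : Fin m ⊕ Fin m → F // QPlus m F w = 0 ∧ w ≠ 0} where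
  toFun v := (v.1 (Sum.inl 0), ⟨down v.1, by
    obtain ⟨v, h1, h2, h3⟩ := v
    rw [polar_e] at h2
    rw [Q_succ, h2, mul_zero, zero_add] at h1
    exact ⟨h1, (li_iff m v h2).1 h3⟩⟩)
  invFun p := ⟨up p.1 p.2.1, by
    have h0 : up p.1 p.2.1 (Sum.inr 0) = 0 := by simp [up]
    refine ⟨?_, ?_, ?_⟩
    · rw [Q_succ, h0, mul_zero, zero_add, down_up]
      exact p.2.2.1
    · rw [polar_e, h0]
    · rw [li_iff _ _ h0, down_up]
      exact p.2.2.2⟩
  left_inv v := by
    obtain ⟨v, h1, h2, h3⟩ := v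
    rw [polar_e] at h2
    apply Subtype.ext
    exact up_down v h2
  right_inv p := by
    obtain ⟨a, w, hw⟩ := p
    refine Prod.ext ?_ (Subtype.ext ?_)
    · simp [up]
    · exact down_up a w

theorem card_ne_zero (m : ℕ) :
    Nat.card {w : Fin m ⊕ Fin m → F // QPlus m F w = 0 ∧ w ≠ 0} + 1 =
      Nat.card {w : Fin m ⊕ Fin m → F // QPlus m F w = 0} := by
  have h := Set.ncard_sdiff_singleton_add_one (s := {w : Fin m ⊕ Fin m → F | QPlus m F w = 0})
    (a := 0) (by simp) (Set.toFinite _)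
  rw [← Nat.card_coe_set_eq, ← Nat.card_coe_set_eq] at h
  exact h

theorem card_sing (j : ℕ) :
    Nat.card {w : Fin (j + 1) ⊕ Fin (j + 1) → F // QPlus (j + 1) F w = 0 ∧ w ≠ 0} =
      (Fintype.card F ^ (j + 1) - 1) * (Fintype.card F ^ j + 1) := by
  have h1 := card_ne_zero (F := F) (j + 1)
  have h2 := Cfsg.Agent.Lib.Helper7QForms.card_plus (F := F) (j + 1) 0
  have h3 := Cfsg.Agent.Lib.Helper7QForms.cntQ_plus_zero (F := F) (j + 1)
  rw [coe_QPlus] at h1
  rw [coe_QPlus]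
  rw [← h2, ← h1] at h3
  generalize Nat.card {w : Fin (j + 1) ⊕ Fin (j + 1) → F //
    Cfsg.quadFormPlus (j + 1) F w = 0 ∧ w ≠ 0} = Z at h3 ⊢
  have hq : 1 ≤ Fintype.card F := Fintype.card_pos
  generalize Fintype.card F = q at h3 hq ⊢
  have hq1 : 1 ≤ q ^ (j + 1) := Nat.one_le_pow _ _ hq
  apply Nat.eq_of_mul_eq_mul_left hq
  zify [hq1] at h3 ⊢
  linear_combination h3

theorem SS_card (k : ℕ) :
    Nat.card (SS (k + 2) F) = (Fintype.card F ^ (k + 2) - 1) * (Fintype.card F ^ (k + 1) + 1) *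
      (Fintype.card F * ((Fintype.card F ^ (k + 1) - 1) * (Fintype.card F ^ k + 1))) := by
  have he : QPlus (k + 1 + 1) F (Pi.single (Sum.inl 0) (1 : F)) = 0 := by
    rw [Q_succ]; simp [down]
    convert map_zero (QPlus (k + 1) F) using 2
    funext i
    rcases i with i | i <;> simp
  have he0 : (Pi.single (Sum.inl 0) (1 : F) : Fin (k + 1 + 1) ⊕ Fin (k + 1 + 1) → F) ≠ 0 := by
    intro h
    have := congrFun h (Sum.inl 0)
    simp at this
  have hT : ∀ u : {u : Fin (k + 1 + 1) ⊕ Fin (k + 1 + 1) → F // QPlus (k + 1 + 1) F u = 0 ∧ u ≠ 0},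
      Nat.card (TT (k + 1 + 1) u.1) =
        Fintype.card F * ((Fintype.card F ^ (k + 1) - 1) * (Fintype.card F ^ k + 1)) := by
    intro u
    rw [le_antisymm (TT_le _ u.2.2 he0 u.2.1 he) (TT_le _ he0 u.2.2 he u.2.1),
      Nat.card_congr (TTequiv (k + 1)), Nat.card_prod, card_sing, Nat.card_eq_fintype_card]
  rw [Nat.card_congr (SSequiv (k + 2)), Nat.card_sigma]
  rw [Finset.sum_congr rfl (fun u _ => hT u), Finset.sum_const, smul_eq_mul, Finset.card_univ,
    ← Nat.card_eq_fintype_card, card_sing]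

end Cfsg.Agent.Lib.Helper73Osscard
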