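import Mathlib
import Cfsg.Agent.Lib.Helper44ODefs
import Cfsg.Agent.Lib.Helper49Witt2
import Cfsg.Agent.Lib.Helper49Rank
import Cfsg.Agent.Lib.Helper49Forms
import Cfsg.Agent.Lib.Helper73Osscard

set_option autoImplicit false

/-! PROJECT 46, piece `cls`: the class of long root elements of `Ω⁺`. -/

namespace Cfsg.Agent.Lib.Helper73Ocls

open Matrix Cfsg Cfsg.Agent.Lib.Helper44Wt Cfsg.Agent.Lib.Helper44Lam
  Cfsg.Agent.Lib.Helper44SLDefs Cfsg.Agent.Lib.Helper44ODefs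
  Cfsg.Agent.Lib.Helper49Forms Cfsg.Agent.Lib.Helper49Orth Cfsg.Agent.Lib.Helper49Eich
  Cfsg.Agent.Lib.Helper73Osscard

variable {F : Type*} [Field F] {n : ℕ}

/-- swap the two halves of the coordinates -/
def sw (v : Fin n ⊕ Fin n → F) : Fin n ⊕ Fin n → F := fun i => v i.swap

theorem sw_sw (v : Fin n ⊕ Fin n → F) : sw (sw v) = v := by
  funext i
  simp [sw]

theorem polar_eq (x v : Fin n ⊕ Fin n → F) :
    QuadraticMap.polar (QPlus n F) x v = x ⬝ᵥ sw v := by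
  rw [coe_QPlus]
  unfold QuadraticMap.polar
  simp only [Cfsg.quadFormPlus, dotProduct, Fintype.sum_sum_type, sw, Sum.swap_inl, Sum.swap_inr,
    Pi.add_apply]
  rw [← Finset.sum_sub_distrib, ← Finset.sum_sub_distrib, ← Finset.sum_add_distrib]
  apply Finset.sum_congr rfl
  intros
  ring

theorem alt_sw (u w x : Fin n ⊕ Fin n → F) :
    alt u w *ᵥ sw x = QuadraticMap.polar (QPlus n F) w x • u -
      QuadraticMap.polar (QPlus n F) u x • w := by
  rw [alt_mulVec, polar_eq, polar_eq]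

/-- the matrix of an isometry -/
abbrev mx {Q' : (Fin n ⊕ Fin n → F) → F} (g : ↥(Cfsg.isometryGroup F Q')) :
    Matrix (Fin n ⊕ Fin n) (Fin n ⊕ Fin n) F :=
  ((g : Matrix.GeneralLinearGroup (Fin n ⊕ Fin n) F) : Matrix (Fin n ⊕ Fin n) (Fin n ⊕ Fin n) F)

theorem conj_act (g T : ↥(Cfsg.isometryGroup F ⇑(QPlus n F))) (u w : Fin n ⊕ Fin n → F)
    (hT : ∀ v, mx T *ᵥ v = v + alt u w *ᵥ sw v) (v : Fin n ⊕ Fin n → F) :
    mx (g * T * g⁻¹) *ᵥ v = v + alt (mx g *ᵥ u) (mx g *ᵥ w) *ᵥ sw v := by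
  rw [mul_mulVec, mul_mulVec, hT, Matrix.mulVec_add, mulVec_inv_mulVec, alt_sw, alt_sw,
    Matrix.mulVec_sub, Matrix.mulVec_smul, Matrix.mulVec_smul,
    ← polar_iso (QPlus n F) g w, ← polar_iso (QPlus n F) g u, mulVec_inv_mulVec]

theorem conj_eq_iff (g h T : ↥(Cfsg.isometryGroup F ⇑(QPlus n F))) (u w : Fin n ⊕ Fin n → F)
    (hT : ∀ v, mx T *ᵥ v = v + alt u w *ᵥ sw v) :
    g * T * g⁻¹ = h * T * h⁻¹ ↔
      alt (mx g *ᵥ u) (mx g *ᵥ w) = alt (mx h *ᵥ u) (mx h *ᵥ w) := by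
  constructor
  · intro H
    rw [Matrix.ext_iff_mulVec]
    intro v
    have h1 := conj_act g T u w hT (sw v)
    have h2 := conj_act h T u w hT (sw v)
    rw [H, h2, sw_sw] at h1
    exact (add_left_cancel h1).symm
  · intro H
    apply iso_ext
    rw [Matrix.ext_iff_mulVec]
    intro v
    have h1 := conj_act g T u w hT v
    have h2 := conj_act h T u w hT v
    rw [h1, h2, H]

theorem SS_map (g : ↥(Cfsg.isometryGroup F ⇑(QPlus n F)))
    (p : (Fin n ⊕ Fin n → F) × (Fin n ⊕ Fin n → F)) (hp : p ∈ SS n F) :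
    (mx g *ᵥ p.1, mx g *ᵥ p.2) ∈ SS n F := by
  rw [mem_SS] at hp ⊢
  obtain ⟨h1, h2, h3, h4⟩ := hp
  refine ⟨?_, ?_, ?_, ?_⟩
  · rw [iso_apply (Q := ⇑(QPlus n F))]; exact h1
  · rw [iso_apply (Q := ⇑(QPlus n F))]; exact h2
  · rw [polar_iso]; exact h3
  · rw [LinearIndependent.pair_iff] at h4 ⊢
    intro s t hst
    apply h4 s t
    rw [← inv_mulVec_mulVec (QPlus n F) g (s • p.1 + t • p.2), Matrix.mulVec_add,
      Matrix.mulVec_smul, Matrix.mulVec_smul]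
    simp only at hst
    rw [hst, Matrix.mulVec_zero]

theorem base_mem (k : ℕ) :
    ((Pi.single (Sum.inl 0) 1 : Fin (k + 2) ⊕ Fin (k + 2) → F), 
      (Pi.single (Sum.inl 1) 1 : Fin (k + 2) ⊕ Fin (k + 2) → F)) ∈ SS (k + 2) F := by
  rw [mem_SS]
  refine ⟨?_, ?_, ?_, ?_⟩
  · have := (hypPair_QPlus (F := F) (k + 2) 0).Q_st 1 0
    simpa using this
  · have := (hypPair_QPlus (F := F) (k + 2) 1).Q_st 1 0
    simpa using this
  · have := (hypPair_QPlus (F := F) (k + 2) 0).polar_st 1 0 (Pi.single (Sum.inl 1) 1)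
    simpa using this
  · rw [LinearIndependent.pair_iff]
    intro s t hst
    have h0 := congrFun hst (Sum.inl 0)
    have h1 := congrFun hst (Sum.inl 1)
    simp at h0 h1
    exact ⟨h0, h1⟩

variable [Fintype F] [DecidableEq F]

theorem SS_trans (k : ℕ) (hk : 2 ≤ k)
    (p r : (Fin (k + 2) ⊕ Fin (k + 2) → F) × (Fin (k + 2) ⊕ Fin (k + 2) → F))
    (hp : p ∈ SS (k + 2) F) (hr : r ∈ SS (k + 2) F) :
    ∃ g ∈ Cfsg.Omega F ⇑(QPlus (k + 2) F), mx g *ᵥ p.1 = r.1 ∧ mx g *ᵥ p.2 = r.2 := by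
  have hnd := Cfsg.Agent.Lib.Helper49Rank.QPlus_nondegenerate (F := F) (k + 2)
  have hcard : Fintype.card (Fin (k + 2) ⊕ Fin (k + 2)) = 2 * (k + 2) := by
    simp; ring
  have hp' := (mem_SS _).1 hp
  have hr' := (mem_SS _).1 hr
  obtain ⟨g₁, hg₁, -, h1⟩ := Cfsg.Agent.Lib.Helper49Witt2.witt_core_Omega (QPlus (k + 2) F) hnd
    (Or.inr (by rw [hcard]; omega)) ⊥ (by rw [hcard, finrank_bot]; omega)
    (x := p.1) (y := r.1)
    (by simpa using hp'.2.2.2.ne_zero 0) (by simpa using hr'.2.2.2.ne_zero 0)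
    (by rw [hp'.1, hr'.1]) (by
      intro h hh
      rw [Submodule.mem_bot] at hh
      subst hh
      simp)
  have hq := (mem_SS _).1 (SS_map g₁ p hp)
  simp only at hq
  rw [h1] at hq
  have hnot : ∀ y : Fin (k + 2) ⊕ Fin (k + 2) → F, LinearIndependent F ![r.1, y] →
      y ∉ Submodule.span F {r.1} := by
    intro y hy hmem
    obtain ⟨c, hc⟩ := Submodule.mem_span_singleton.1 hmem
    have := (LinearIndependent.pair_iff.1 hy c (-1) (by rw [hc]; simp)).2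
    simp at this
  obtain ⟨g₂, hg₂, hfix, h2⟩ := Cfsg.Agent.Lib.Helper49Witt2.witt_core_Omega (QPlus (k + 2) F) hnd
    (Or.inr (by rw [hcard]; omega)) (Submodule.span F {r.1}) (by
      have h0 : r.1 ≠ 0 := hr'.2.2.2.ne_zero 0
      rw [hcard, finrank_span_singleton h0]; omega)
    (x := mx g₁ *ᵥ p.2) (y := r.2)
    (hnot _ hq.2.2.2) (hnot _ hr'.2.2.2)
    (by rw [hq.2.1, hr'.2.1]) (by
      intro h hh
      obtain ⟨c, rfl⟩ := Submodule.mem_span_singleton.1 hh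
      rw [QuadraticMap.polar_smul_left, QuadraticMap.polar_smul_left, hq.2.2.1, hr'.2.2.1])
  refine ⟨g₂ * g₁, mul_mem hg₂ hg₁, ?_, ?_⟩
  · rw [mul_mulVec, h1]
    exact hfix _ (Submodule.mem_span_singleton_self _)
  · rw [mul_mulVec, h2]

theorem cls_aux (k : ℕ) (hk : 2 ≤ k) (Q' : (Fin (k + 2) ⊕ Fin (k + 2) → F) → F)
    (hQ' : Q' = ⇑(QPlus (k + 2) F)) (t : ↥(Cfsg.Omega F Q'))
    (ht : ∀ v, mx (t : ↥(Cfsg.isometryGroup F Q')) *ᵥ v =
      v + alt (Pi.single (Sum.inl 0) 1) (Pi.single (Sum.inl 1) 1) *ᵥ sw v) :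
    (Subgroup.centralizer ({t} : Set ↥(Cfsg.Omega F Q'))).index =
      Nat.card ((fun p : (Fin (k + 2) ⊕ Fin (k + 2) → F) × (Fin (k + 2) ⊕ Fin (k + 2) → F) =>
        alt p.1 p.2) '' SS (k + 2) F) := by
  subst hQ'
  set f : ↥(Cfsg.Omega F ⇑(QPlus (k + 2) F)) →
      Matrix (Fin (k + 2) ⊕ Fin (k + 2)) (Fin (k + 2) ⊕ Fin (k + 2)) F :=
    fun g => alt (mx (g : ↥(Cfsg.isometryGroup F ⇑(QPlus (k + 2) F))) *ᵥ Pi.single (Sum.inl 0) 1)
      (mx (g : ↥(Cfsg.isometryGroup F ⇑(QPlus (k + 2) F))) *ᵥ Pi.single (Sum.inl 1) 1) with hf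
  have hrel : QuotientGroup.leftRel (Subgroup.centralizer
      ({t} : Set ↥(Cfsg.Omega F ⇑(QPlus (k + 2) F)))) = Setoid.ker f := by
    ext g h
    rw [QuotientGroup.leftRel_apply, Setoid.ker_def, Subgroup.mem_centralizer_singleton_iff, hf]
    simp only
    rw [← conj_eq_iff _ _ (t : ↥(Cfsg.isometryGroup F ⇑(QPlus (k + 2) F))) _ _ ht]
    have e : ((g : ↥(Cfsg.isometryGroup F ⇑(QPlus (k + 2) F))) * t * (g : ↥(Cfsg.isometryGroup F ⇑(QPlus (k + 2) F)))⁻¹ =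
        (h : ↥(Cfsg.isometryGroup F ⇑(QPlus (k + 2) F))) * t * (h : ↥(Cfsg.isometryGroup F ⇑(QPlus (k + 2) F)))⁻¹) ↔ g * t * g⁻¹ = h * t * h⁻¹ := by
      constructor
      · intro H
        exact Subtype.ext H
      · intro H
        exact congrArg Subtype.val H
    rw [e]
    constructor
    · intro H
      calc g * t * g⁻¹ = g * (t * (g⁻¹ * h)) * h⁻¹ := by group
        _ = g * ((g⁻¹ * h) * t) * h⁻¹ := by rw [H]
        _ = h * t * h⁻¹ := by group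
    · intro H
      calc g⁻¹ * h * t = g⁻¹ * (h * t * h⁻¹) * h := by group
        _ = g⁻¹ * (g * t * g⁻¹) * h := by rw [H]
        _ = t * (g⁻¹ * h) := by group
  have hrange : Set.range f =
      (fun p : (Fin (k + 2) ⊕ Fin (k + 2) → F) × (Fin (k + 2) ⊕ Fin (k + 2) → F) =>
        alt p.1 p.2) '' SS (k + 2) F := by
    ext M
    constructor
    · rintro ⟨g, rfl⟩
      exact ⟨_, SS_map (g : ↥(Cfsg.isometryGroup F ⇑(QPlus (k + 2) F))) _ (base_mem k), rfl⟩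
    · rintro ⟨p, hp, rfl⟩
      obtain ⟨g, hg, h1, h2⟩ := SS_trans k hk _ p (base_mem k) hp
      refine ⟨⟨g, hg⟩, ?_⟩
      simp only [hf]
      simp only at h1 h2
      rw [h1, h2]
  show Nat.card (Quotient (QuotientGroup.leftRel (Subgroup.centralizer
      ({t} : Set ↥(Cfsg.Omega F ⇑(QPlus (k + 2) F)))))) = _
  rw [hrel, Nat.card_congr (Setoid.quotientKerEquivRange f), hrange]

theorem cls_index (k : ℕ) (hk : 2 ≤ k)
    (hU : ∀ X : Multiplicative (Matrix (Fin (k + 2)) (Fin (k + 2)) F),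
      uI X ∈ Cfsg.Omega F (Cfsg.quadFormPlus (k + 2) F)) :
    (Subgroup.centralizer ({uQ hU (Multiplicative.ofAdd (X0 k F))} : Set (OO (k + 2) F))).index =
      Nat.card ((fun p : (Fin (k + 2) ⊕ Fin (k + 2) → F) × (Fin (k + 2) ⊕ Fin (k + 2) → F) =>
        alt p.1 p.2) '' SS (k + 2) F) := by
  apply cls_aux k hk _ (coe_QPlus (k + 2)).symm
  intro v
  show (((uI (Multiplicative.ofAdd (X0 k F)) : IO (k + 2) F) : GL (Fin (k + 2) ⊕ Fin (k + 2)) F) :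
      Matrix (Fin (k + 2) ⊕ Fin (k + 2)) (Fin (k + 2) ⊕ Fin (k + 2)) F) *ᵥ v = _
  rw [uI_coe, fromBlocks_mulVec', alt_mulVec, X0, Matrix.sub_mulVec, Matrix.transpose_single,
    Matrix.single_mulVec_eq, Matrix.single_mulVec_eq]
  funext i
  rcases i with i | i
  · simp [sw, Pi.single_apply]
  · simp [sw]

end Cfsg.Agent.Lib.Helper73Ocls
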