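import Mathlib
import Cfsg.Agent.Lib.Helper44ODefs
import Cfsg.Agent.Lib.Helper7SL

set_option autoImplicit false

/-! PROJECT 46, piece `fib`: the fibres of `(u, v) ↦ alt u v` are `SL₂`-orbits. -/

namespace Cfsg.Agent.Lib.Helper73Ofib

open Matrix Cfsg Cfsg.Agent.Lib.Helper44ODefs

variable {F : Type*} [Field F]

section
variable {ι : Type*} [Fintype ι] [DecidableEq ι]

omit [Fintype ι] [DecidableEq ι] in
theorem alt_lin (u v : ι → F) (a b c d : F) :
    alt (a • u + b • v) (c • u + d • v) = (a * d - b * c) • alt u v := by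
  ext i j
  simp only [alt_apply, Pi.add_apply, Pi.smul_apply, smul_eq_mul, Matrix.smul_apply]
  ring

theorem exists_dual {u v : ι → F} (h : ∀ s t : F, s • u + t • v = 0 → s = 0 ∧ t = 0) :
    ∃ x : ι → F, u ⬝ᵥ x = 1 ∧ v ⬝ᵥ x = 0 := by
  have hu : u ∉ Submodule.span F {v} := by
    intro hmem
    obtain ⟨c, hc⟩ := Submodule.mem_span_singleton.1 hmem
    have := h 1 (-c) (by rw [one_smul, neg_smul, hc]; abel)
    exact one_ne_zero this.1
  obtain ⟨f, hf1, hf2⟩ := Submodule.exists_dual_map_eq_bot_of_notMem hu inferInstance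
  have hfv : f v = 0 := by
    have : f v ∈ (Submodule.span F {v}).map f := ⟨v, Submodule.mem_span_singleton_self v, rfl⟩
    rw [hf2] at this
    simpa using this
  have key : ∀ w : ι → F,
      w ⬝ᵥ (fun i => (f u)⁻¹ * f (fun j => if i = j then 1 else 0)) = (f u)⁻¹ * f w := by
    intro w
    rw [LinearMap.pi_apply_eq_sum_univ f w, dotProduct, Finset.mul_sum]
    apply Finset.sum_congr rfl
    intro i _
    rw [smul_eq_mul]
    ring
  refine ⟨fun i => (f u)⁻¹ * f (fun j => if i = j then 1 else 0), ?_, ?_⟩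
  · rw [key, inv_mul_cancel₀ hf1]
  · rw [key, hfv, mul_zero]

theorem pair_swap {u v : ι → F} (h : ∀ s t : F, s • u + t • v = 0 → s = 0 ∧ t = 0) :
    ∀ s t : F, s • v + t • u = 0 → s = 0 ∧ t = 0 := by
  intro s t hst
  have := h t s (by rw [add_comm]; exact hst)
  exact ⟨this.2, this.1⟩

theorem alt_ne_zero {u v : ι → F} (h : ∀ s t : F, s • u + t • v = 0 → s = 0 ∧ t = 0) :
    alt u v ≠ 0 := by
  intro h0
  obtain ⟨y, hy1, hy2⟩ := exists_dual (pair_swap h)
  have h1 := alt_mulVec u v y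
  rw [h0, zero_mulVec, hy1, hy2, one_smul, zero_smul, sub_zero] at h1
  have := h 1 0 (by rw [one_smul, zero_smul, add_zero, ← h1])
  exact one_ne_zero this.1

/-- two independent pairs with the same `alt` differ by an element of `SL₂` -/
theorem exists_coeff {u v u' v' : ι → F} (h : ∀ s t : F, s • u + t • v = 0 → s = 0 ∧ t = 0)
    (h' : ∀ s t : F, s • u' + t • v' = 0 → s = 0 ∧ t = 0) (he : alt u' v' = alt u v) :
    ∃ a b c d : F, a * d - b * c = 1 ∧ u' = a • u + b • v ∧ v' = c • u + d • v := by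
  obtain ⟨x, hx1, hx2⟩ := exists_dual h'
  obtain ⟨y, hy1, hy2⟩ := exists_dual (pair_swap h')
  have e1 := alt_mulVec u' v' y
  rw [hy1, hy2, one_smul, zero_smul, sub_zero, he, alt_mulVec] at e1
  have e2 := alt_mulVec u' v' x
  rw [hx1, hx2, one_smul, zero_smul, zero_sub, he, alt_mulVec] at e2
  have hu' : u' = (v ⬝ᵥ y) • u + (-(u ⬝ᵥ y)) • v := by
    rw [← e1, neg_smul, sub_eq_add_neg]
  have hv' : v' = (-(v ⬝ᵥ x)) • u + (u ⬝ᵥ x) • v := by
    have : v' = -((v ⬝ᵥ x) • u - (u ⬝ᵥ x) • v) := by rw [e2, neg_neg]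
    rw [this, neg_smul]
    abel
  refine ⟨_, _, _, _, ?_, hu', hv'⟩
  have h3 := alt_lin u v (v ⬝ᵥ y) (-(u ⬝ᵥ y)) (-(v ⬝ᵥ x)) (u ⬝ᵥ x)
  rw [← hu', ← hv', he] at h3
  by_contra hne
  have h4 : ((v ⬝ᵥ y) * (u ⬝ᵥ x) - -(u ⬝ᵥ y) * -(v ⬝ᵥ x) - 1) • alt u v = 0 := by
    rw [sub_smul, one_smul, ← h3, sub_self]
  rcases smul_eq_zero.1 h4 with h5 | h5
  · exact hne (sub_eq_zero.1 h5)
  · exact alt_ne_zero h h5

variable [Fintype F] [DecidableEq F]

theorem fib_card (S : Set ((ι → F) × (ι → F)))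
    (hind : ∀ p ∈ S, LinearIndependent F ![p.1, p.2])
    (hcl : ∀ p ∈ S, ∀ a b c d : F, a * d - b * c = 1 →
      (a • p.1 + b • p.2, c • p.1 + d • p.2) ∈ S) :
    Nat.card S = Fintype.card F * (Fintype.card F ^ 2 - 1) *
      Nat.card ((fun p : (ι → F) × (ι → F) => alt p.1 p.2) '' S) := by
  have hind' : ∀ p ∈ S, ∀ s t : F, s • p.1 + t • p.2 = 0 → s = 0 ∧ t = 0 :=
    fun p hp => LinearIndependent.pair_iff.1 (hind p hp)
  choose rep hrepS hrep using
    fun C : ↥((fun p : (ι → F) × (ι → F) => alt p.1 p.2) '' S) => C.2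
  have hdet : ∀ g : Matrix.SpecialLinearGroup (Fin 2) F, g 0 0 * g 1 1 - g 0 1 * g 1 0 = 1 := by
    intro g
    have := g.2
    rwa [Matrix.det_fin_two] at this
  let Ψ : ↥((fun p : (ι → F) × (ι → F) => alt p.1 p.2) '' S) ×
      Matrix.SpecialLinearGroup (Fin 2) F → ↥S := fun x =>
    ⟨(x.2 0 0 • (rep x.1).1 + x.2 0 1 • (rep x.1).2, x.2 1 0 • (rep x.1).1 + x.2 1 1 • (rep x.1).2),
      hcl _ (hrepS x.1) _ _ _ _ (hdet x.2)⟩
  have hΨalt : ∀ x, alt (Ψ x).1.1 (Ψ x).1.2 = x.1.1 := by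
    intro x
    show alt (x.2 0 0 • (rep x.1).1 + x.2 0 1 • (rep x.1).2)
      (x.2 1 0 • (rep x.1).1 + x.2 1 1 • (rep x.1).2) = _
    rw [alt_lin, hdet, one_smul]
    exact hrep x.1
  have hbij : Function.Bijective Ψ := by
    constructor
    · rintro ⟨C, g⟩ ⟨C', g'⟩ hxy
      have hC : C = C' := by
        apply Subtype.ext
        rw [← hΨalt (C, g), ← hΨalt (C', g'), hxy]
      subst hC
      have h1 := congrArg (fun z : ↥S => z.1.1) hxy
      have h2 := congrArg (fun z : ↥S => z.1.2) hxy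
      have h1' : (g 0 0 - g' 0 0) • (rep C).1 + (g 0 1 - g' 0 1) • (rep C).2 = 0 := by
        have : g 0 0 • (rep C).1 + g 0 1 • (rep C).2 = g' 0 0 • (rep C).1 + g' 0 1 • (rep C).2 := h1
        rw [sub_smul, sub_smul]
        linear_combination (exp := 1) this
      have h2' : (g 1 0 - g' 1 0) • (rep C).1 + (g 1 1 - g' 1 1) • (rep C).2 = 0 := by
        have : g 1 0 • (rep C).1 + g 1 1 • (rep C).2 = g' 1 0 • (rep C).1 + g' 1 1 • (rep C).2 := h2
        rw [sub_smul, sub_smul]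
        linear_combination (exp := 1) this
      obtain ⟨a1, a2⟩ := hind' _ (hrepS C) _ _ h1'
      obtain ⟨a3, a4⟩ := hind' _ (hrepS C) _ _ h2'
      have : g = g' := by
        ext i j
        fin_cases i <;> fin_cases j
        · exact sub_eq_zero.1 a1
        · exact sub_eq_zero.1 a2
        · exact sub_eq_zero.1 a3
        · exact sub_eq_zero.1 a4
      rw [this]
    · rintro ⟨p, hp⟩
      let C : ↥((fun p : (ι → F) × (ι → F) => alt p.1 p.2) '' S) := ⟨alt p.1 p.2, p, hp, rfl⟩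
      obtain ⟨a, b, c, d, hdet', hu, hv⟩ := exists_coeff (hind' _ (hrepS C)) (hind' p hp)
        (hrep C).symm
      refine ⟨(C, ⟨!![a, b; c, d], by rw [Matrix.det_fin_two_of]; exact hdet'⟩), ?_⟩
      apply Subtype.ext
      apply Prod.ext
      · exact hu.symm
      · exact hv.symm
  rw [← Nat.card_congr (Equiv.ofBijective Ψ hbij), Nat.card_prod,
    Cfsg.Agent.Lib.Helper7SL.card_SL_two, mul_comm]

end

end Cfsg.Agent.Lib.Helper73Ofib
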