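import Mathlib

set_option autoImplicit false

namespace Cfsg.Agent.Lib.Helper78Onum1

theorem num1 (q k D : ℕ) (hq : 3 < q) (hk : 2 ≤ k)
    (h : (q ^ 2 - 1) * D < (q ^ (k + 2) - 1) * (q ^ (k + 1) + q)) :
    D < 2 * (q ^ (k + 1) - 1) * q ^ k := by
  by_contra hcon
  push Not at hcon
  obtain ⟨x, hx⟩ : ∃ x, x = q ^ k := ⟨_, rfl⟩
  have hxq : q ^ 2 ≤ x := by
    rw [hx]; exact Nat.pow_le_pow_right (by omega) hk
  have e1 : q ^ (k + 2) = q ^ 2 * x := by rw [hx]; ring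
  have e2 : q ^ (k + 1) = q * x := by rw [hx]; ring
  rw [e1, e2] at h
  rw [e2, ← hx] at hcon
  have hq2 : 1 ≤ q ^ 2 := Nat.one_le_pow _ _ (by omega)
  have hx1 : 1 ≤ x := le_trans hq2 hxq
  have h1 : 1 ≤ q ^ 2 * x := Nat.mul_pos (by omega) (by omega)
  have h2 : 1 ≤ q * x := Nat.mul_pos (by omega) (by omega)
  have h' : (q ^ 2 - 1) * (2 * (q * x - 1) * x) < (q ^ 2 * x - 1) * (q * x + q) :=
    lt_of_le_of_lt (Nat.mul_le_mul_left _ hcon) h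
  zify [hq2, h1, h2] at h'
  have hqz : (4 : ℤ) ≤ q := by exact_mod_cast hq
  have hxz : (q : ℤ) ^ 2 ≤ x := by exact_mod_cast hxq
  set Q : ℤ := (q : ℤ)
  set X : ℤ := (x : ℤ)
  have hX0 : 0 < X := by nlinarith
  have key : 0 ≤ X * (X * (Q ^ 3 - 2 * Q) - (Q ^ 3 + 2 * Q ^ 2 - Q - 2)) := by
    apply mul_nonneg hX0.le
    have a1 : 0 ≤ Q ^ 3 - 2 * Q := by nlinarith
    have a2 : Q ^ 2 * (Q ^ 3 - 2 * Q) ≤ X * (Q ^ 3 - 2 * Q) := mul_le_mul_of_nonneg_right hxz a1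
    have a3 : Q ^ 3 + 2 * Q ^ 2 - Q - 2 ≤ Q ^ 2 * (Q ^ 3 - 2 * Q) := by
      have b1 : (16 : ℤ) ≤ Q ^ 2 := by nlinarith
      have b2 : (64 : ℤ) ≤ Q ^ 3 := by nlinarith
      nlinarith
    linarith
  nlinarith

end Cfsg.Agent.Lib.Helper78Onum1
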