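import Mathlib

set_option autoImplicit false

namespace Cfsg.Agent.Lib.Helper78Onum2

private theorem aux0 (Q X : ℤ) (hq : 2 ≤ Q) (hx : Q ^ 2 ≤ X) : 0 < Q * X - 1 := by
  nlinarith

private theorem aux1 (Q X : ℤ) (hq : 2 ≤ Q) (hx : Q ^ 2 ≤ X) :
    (Q ^ 2 - 1) ^ 2 * (Q * X - 1) < Q ^ 3 * X ^ 2 + Q ^ 3 * X - Q * X - Q ^ 2 - Q + 1 := by
  have hQX : 0 < Q * X - 1 := aux0 Q X hq hx
  have hX0 : 0 < X := by nlinarith
  have c1 : (Q ^ 2 - 1) ^ 2 * (Q * X - 1) < Q ^ 5 * X := by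
    have d1 : (Q ^ 2 - 1) ^ 2 ≤ Q ^ 4 := by nlinarith
    have d2 : (Q ^ 2 - 1) ^ 2 * (Q * X - 1) ≤ Q ^ 4 * (Q * X - 1) :=
      mul_le_mul_of_nonneg_right d1 hQX.le
    have d3 : 0 < Q ^ 4 := by positivity
    nlinarith
  have c2 : Q ^ 5 * X ≤ Q ^ 3 * X ^ 2 := by
    have d3 : 0 ≤ Q ^ 3 * X := by positivity
    nlinarith [mul_le_mul_of_nonneg_left hx d3]
  have d4 : 0 < Q ^ 3 * X - Q * X - Q ^ 2 - Q + 1 := by
    have : Q ^ 3 * X - Q * X = Q * X * (Q ^ 2 - 1) := by ring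
    have e5 : 3 ≤ Q ^ 2 - 1 := by nlinarith
    have e6 : Q * Q ^ 2 ≤ Q * X := mul_le_mul_of_nonneg_left hx (by linarith)
    nlinarith
  linarith

theorem num2 (q k D T m₀ O : ℕ) (hq : 2 ≤ q) (hk : 2 ≤ k)
    (hO : (q ^ 2 - 1) * O = (q ^ (k + 2) - 1) * (q ^ (k + 1) - 1))
    (hD : D = m₀ + O) (hm : (q ^ (k + 2) - q) / (q - 1) ≤ m₀)
    (hT : (q ^ 2 - 1) * T = (q ^ (k + 2) - 1) * (q ^ (k + 1) + 1) * ((q ^ (k + 1) - 1) * (q ^ k + 1)))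
    (hdvd : D ∣ T * q ^ (2 * k + 1)) :
    (q ^ (k + 2) - 1) * (q ^ (k + 1) + q) ≤ (q ^ 2 - 1) * D := by
  obtain ⟨x, hx⟩ : ∃ x, x = q ^ k := ⟨_, rfl⟩
  have hxq : q ^ 2 ≤ x := by
    rw [hx]; exact Nat.pow_le_pow_right (by omega) hk
  have e1 : q ^ (k + 2) = q ^ 2 * x := by rw [hx]; ring
  have e2 : q ^ (k + 1) = q * x := by rw [hx]; ring
  have hq2 : 1 ≤ q ^ 2 := Nat.one_le_pow _ _ (by omega)
  have hx1 : 1 ≤ x := le_trans hq2 hxq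
  have h1 : 1 ≤ q ^ 2 * x := Nat.mul_pos (by omega) (by omega)
  have h2 : 1 ≤ q * x := Nat.mul_pos (by omega) (by omega)
  have hq1 : 1 ≤ q := by omega
  -- the geometric quotient
  obtain ⟨g, hg⟩ : ∃ g, g = (q ^ (k + 2) - q) / (q - 1) := ⟨_, rfl⟩
  have hgd : (q - 1) ∣ (q ^ (k + 2) - q) := by
    have : q ^ (k + 2) - q = q * (q ^ (k + 1) - 1) := by
      rw [Nat.mul_sub, mul_one]; congr 1; ring
    rw [this]
    exact Dvd.dvd.mul_left (by simpa using Nat.sub_dvd_pow_sub_pow q 1 (k + 1)) _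
  have hg' : (q - 1) * g = q ^ 2 * x - q := by
    rw [hg, Nat.mul_div_cancel' hgd, e1]
  rw [← hg] at hm
  have hqle : q ≤ q ^ 2 * x := by nlinarith
  rw [e1, e2] at hO hT ⊢
  rw [← hx] at hT
  zify [hq2, h1, h2, hq1, hqle] at hO hT hg' ⊢
  have hqz : (2 : ℤ) ≤ q := by exact_mod_cast hq
  have hxz : (q : ℤ) ^ 2 ≤ x := by exact_mod_cast hxq
  have hDz : (D : ℤ) = m₀ + O := by exact_mod_cast hD
  have hmz : (g : ℤ) ≤ m₀ := by exact_mod_cast hm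
  have hdz : (D : ℤ) ∣ (T : ℤ) * (q : ℤ) ^ (2 * k + 1) := by exact_mod_cast hdvd
  generalize (q : ℤ) = Q at *
  generalize (x : ℤ) = X at *
  generalize (D : ℤ) = D' at *
  generalize (T : ℤ) = T' at *
  generalize (O : ℤ) = O' at *
  generalize (g : ℤ) = g' at *
  generalize (m₀ : ℤ) = m' at *
  have hX0 : 0 < X := by nlinarith
  have hQ21 : 0 < Q ^ 2 - 1 := by nlinarith
  have hg2 : (Q ^ 2 - 1) * g' = (Q + 1) * (Q ^ 2 * X - Q) := by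
    have : (Q ^ 2 - 1) * g' = (Q + 1) * ((Q - 1) * g') := by ring
    rw [this, hg']
  rcases eq_or_lt_of_le hmz with heq | hlt
  · exfalso
    obtain ⟨M, hM⟩ : ∃ M : ℤ, M = Q ^ 3 * X ^ 2 + Q ^ 3 * X - Q * X - Q ^ 2 - Q + 1 := ⟨_, rfl⟩
    have hMD : (Q ^ 2 - 1) * D' = M := by
      rw [hDz, ← heq, mul_add, hg2, hO, hM]; ring
    obtain ⟨R, hR⟩ : ∃ R : ℤ, R = (Q ^ 2 * X - 1) * (Q * X + 1) * ((Q * X - 1) * (X + 1)) :=
      ⟨_, rfl⟩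
    have hMR : M ∣ R * Q ^ (2 * k + 1) := by
      rw [← hMD, hR, ← hT, mul_assoc]
      exact mul_dvd_mul_left _ hdz
    have hcop : IsCoprime M Q := by
      refine ⟨1, -(Q ^ 2 * X ^ 2 + Q ^ 2 * X - X - Q - 1), ?_⟩
      rw [hM]; ring
    have hMR' : M ∣ R := (hcop.pow_right).dvd_of_dvd_mul_right hMR
    have hid : Q ^ 2 * R + (Q ^ 2 - 1) ^ 2 * (Q * X - 1) = M * (Q ^ 3 * X ^ 2 + Q ^ 2 - Q - 1) := by
      rw [hM, hR]; ring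
    have hdv : M ∣ (Q ^ 2 - 1) ^ 2 * (Q * X - 1) := by
      have h3 : M ∣ Q ^ 2 * R + (Q ^ 2 - 1) ^ 2 * (Q * X - 1) := Dvd.intro _ hid.symm
      exact (dvd_add_right (Dvd.dvd.mul_left hMR' _)).1 h3
    have hQX : 0 < Q * X - 1 := aux0 Q X hqz hxz
    have hpos : 0 < (Q ^ 2 - 1) ^ 2 * (Q * X - 1) := by positivity
    have hle := Int.le_of_dvd hpos hdv
    have c3 := aux1 Q X hqz hxz
    rw [← hM] at c3
    linarith
  · have hm1 : g' + 1 ≤ m' := hlt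
    have : (Q ^ 2 - 1) * (g' + 1 + O') ≤ (Q ^ 2 - 1) * D' := by
      rw [hDz]
      exact mul_le_mul_of_nonneg_left (by linarith) hQ21.le
    refine le_trans (le_of_eq ?_) this
    have e7 : (Q ^ 2 - 1) * (g' + 1 + O') = (Q ^ 2 - 1) * g' + (Q ^ 2 - 1) + (Q ^ 2 - 1) * O' := by
      ring
    rw [e7, hg2, hO]; ring

end Cfsg.Agent.Lib.Helper78Onum2
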