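import Mathlib
import Cfsg.Agent.Lib.Helper44ODefs
import Cfsg.Agent.Lib.Helper73Ofib

set_option autoImplicit false

namespace Cfsg.Agent.Lib.Helper78Oo2card

open Matrix Cfsg Cfsg.Agent.Lib.Helper44ODefs

variable {F : Type*} [Field F] [Fintype F] [DecidableEq F]

/-- all linearly independent pairs -/
def indPairs (ι : Type*) (F : Type*) [Field F] : Set ((ι → F) × (ι → F)) :=
  {p | LinearIndependent F ![p.1, p.2]}

omit [Fintype F] [DecidableEq F] in
theorem indPairs_closed {ι : Type*} : ∀ p ∈ indPairs ι F, ∀ a b c d : F, a * d - b * c = 1 →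
    (a • p.1 + b • p.2, c • p.1 + d • p.2) ∈ indPairs ι F := by
  intro p hp a b c d hdet
  have hp' := LinearIndependent.pair_iff.1 hp
  show LinearIndependent F ![_, _]
  rw [LinearIndependent.pair_iff]
  intro s t hst
  have h1 : (s * a + t * c) • p.1 + (s * b + t * d) • p.2 = 0 := by
    rw [← hst]
    simp only [smul_add, smul_smul, add_smul]
    abel
  obtain ⟨e1, e2⟩ := hp' _ _ h1
  constructor
  · have : s * (a * d - b * c) = d * (s * a + t * c) - c * (s * b + t * d) := by ring
    rw [hdet, e1, e2] at this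
    simpa using this
  · have : t * (a * d - b * c) = a * (s * b + t * d) - b * (s * a + t * c) := by ring
    rw [hdet, e1, e2] at this
    simpa using this

omit [Fintype F] [DecidableEq F] in
theorem image_indPairs {ι : Type*} [Fintype ι] [DecidableEq ι] :
    (fun p : (ι → F) × (ι → F) => alt p.1 p.2) '' indPairs ι F = O2 := by
  ext C
  constructor
  · rintro ⟨p, hp, rfl⟩
    exact ⟨p.1, p.2, hp, rfl⟩
  · rintro ⟨u, v, h, rfl⟩
    exact ⟨(u, v), h, rfl⟩

omit [DecidableEq F] in
theorem card_indPairs (N : ℕ) (hN : 2 ≤ N) :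
    Nat.card (indPairs (Fin N) F) =
      (Fintype.card F ^ N - 1) * (Fintype.card F ^ N - Fintype.card F) := by
  have h := card_linearIndependent (K := F) (V := Fin N → F) (k := 2) (by simpa using hN)
  rw [Fin.prod_univ_two] at h
  simp only [Module.finrank_fintype_fun_eq_card, Fintype.card_fin, Fin.val_zero, pow_zero,
    Fin.val_one, pow_one] at h
  rw [← h]
  refine Nat.card_congr ⟨fun p => ⟨![p.1.1, p.1.2], p.2⟩, fun s => ⟨(s.1 0, s.1 1), ?_⟩, ?_, ?_⟩
  · show LinearIndependent F ![s.1 0, s.1 1]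
    have : ![s.1 0, s.1 1] = s.1 := by
      funext i; fin_cases i <;> rfl
    rw [this]; exact s.2
  · intro p; rfl
  · intro s
    apply Subtype.ext
    funext i; fin_cases i <;> rfl

theorem O2_card (k : ℕ) :
    (Fintype.card F ^ 2 - 1) * Nat.card (O2 : Set (Matrix (Fin (k + 2)) (Fin (k + 2)) F)) =
      (Fintype.card F ^ (k + 2) - 1) * (Fintype.card F ^ (k + 1) - 1) := by
  have h := Cfsg.Agent.Lib.Helper73Ofib.fib_card (indPairs (Fin (k + 2)) F) (fun p hp => hp)
    indPairs_closed
  rw [image_indPairs, card_indPairs (k + 2) (by omega)] at h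
  have hq : 0 < Fintype.card F := Fintype.card_pos
  have e : Fintype.card F ^ (k + 2) - Fintype.card F =
      Fintype.card F * (Fintype.card F ^ (k + 1) - 1) := by
    rw [Nat.mul_sub, mul_one]; congr 1; ring
  rw [e] at h
  apply Nat.eq_of_mul_eq_mul_left hq
  calc Fintype.card F * ((Fintype.card F ^ 2 - 1) *
        Nat.card (O2 : Set (Matrix (Fin (k + 2)) (Fin (k + 2)) F)))
      = Fintype.card F * (Fintype.card F ^ 2 - 1) *
        Nat.card (O2 : Set (Matrix (Fin (k + 2)) (Fin (k + 2)) F)) := by ring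
    _ = _ := h.symm
    _ = _ := by ring

end Cfsg.Agent.Lib.Helper78Oo2card
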