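import Mathlib
import Cfsg.Agent.Lib.Helper44ODefs
import Cfsg.Agent.Lib.Helper30Oo2fib

set_option autoImplicit false

namespace Cfsg.Agent.Lib.Helper78Oo2sum

open Matrix Cfsg Cfsg.Agent.Lib.Helper44ODefs

variable {F : Type*} [Field F] [Fintype F] [DecidableEq F]

omit [Fintype F] [DecidableEq F] in
theorem O2_mulVec_zero {k : ℕ} (C : Matrix (Fin (k + 2)) (Fin (k + 2)) F) (hC : C ∈ O2) :
    (C *ᵥ ee 0) 0 = 0 := by
  obtain ⟨u, v, _, rfl⟩ := hC
  rw [alt_mulVec]
  simp [ee, mul_comm]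

open Classical in
/-- general form of the fibre sum, over any commutative semiring -/
theorem O2_fiber_sum_gen {R : Type*} [CommSemiring R] (k : ℕ) (hk : 1 ≤ k)
    (f : (Fin (k + 2) → F) → R) (hf : f 0 = 0) :
    ∑ C : Matrix (Fin (k + 2)) (Fin (k + 2)) F, (if C ∈ O2 then f (C *ᵥ ee 0) else 0) =
      (Fintype.card F : R) ^ k * ∑ y : Fin (k + 2) → F, if y 0 = 0 then f y else 0 := by
  rw [← Finset.sum_fiberwise Finset.univ (fun C : Matrix (Fin (k + 2)) (Fin (k + 2)) F => C *ᵥ ee 0),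
    Finset.mul_sum]
  refine Finset.sum_congr rfl fun y _ => ?_
  have h1 : ∑ C ∈ Finset.univ.filter
      (fun C : Matrix (Fin (k + 2)) (Fin (k + 2)) F => C *ᵥ ee 0 = y),
      (if C ∈ O2 then f (C *ᵥ ee 0) else 0) =
      ((Finset.univ.filter (fun C : Matrix (Fin (k + 2)) (Fin (k + 2)) F =>
        C ∈ O2 ∧ C *ᵥ ee 0 = y)).card : R) * f y := by
    rw [← nsmul_eq_mul, ← Finset.sum_const, Finset.sum_filter, Finset.sum_filter]
    refine Finset.sum_congr rfl fun C _ => ?_
    by_cases h1 : C *ᵥ ee 0 = y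
    · by_cases h2 : C ∈ O2
      · simp [h1, h2]
      · simp [h2]
    · simp [h1]
  rw [h1]
  by_cases hy : y = 0
  · subst hy; simp [hf]
  by_cases hy0 : y 0 = 0
  · rw [if_pos hy0]
    have := Cfsg.Agent.Lib.Helper30Oo2fib.O2_fib k hk y hy hy0
    rw [Nat.card_eq_fintype_card, Fintype.card_subtype] at this
    rw [this]; push_cast; rfl
  · rw [if_neg hy0, mul_zero]
    have : (Finset.univ.filter (fun C : Matrix (Fin (k + 2)) (Fin (k + 2)) F =>
        C ∈ O2 ∧ C *ᵥ ee 0 = y)) = ∅ := by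
      rw [Finset.filter_eq_empty_iff]
      rintro C _ ⟨hC, rfl⟩
      exact hy0 (O2_mulVec_zero C hC)
    rw [this]; simp

open Classical in
theorem O2_fiber_sum (k : ℕ) (hk : 1 ≤ k) (f : (Fin (k + 2) → F) → ℂ) (hf : f 0 = 0) :
    ∑ C : Matrix (Fin (k + 2)) (Fin (k + 2)) F, (if C ∈ O2 then f (C *ᵥ ee 0) else 0) =
      (Fintype.card F : ℂ) ^ k * ∑ y : Fin (k + 2) → F, if y 0 = 0 then f y else 0 :=
  O2_fiber_sum_gen k hk f hf

/-- summation over the vectors with vanishing first coordinate -/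
theorem sum_zero_coord {R : Type*} [AddCommMonoid R] (n : ℕ) (f : (Fin (n + 1) → F) → R) :
    ∑ y : Fin (n + 1) → F, (if y 0 = 0 then f y else 0) =
      ∑ z : Fin n → F, f (Fin.cons 0 z) := by
  rw [← (Fin.consEquiv (fun _ : Fin (n + 1) => F)).sum_comp, Fintype.sum_prod_type]
  rw [Finset.sum_eq_single (0 : F)]
  · refine Finset.sum_congr rfl fun z _ => ?_
    simp [Fin.consEquiv]
  · intro a _ ha
    refine Finset.sum_eq_zero fun z _ => ?_
    simp [Fin.consEquiv, ha]
  · intro h; exact absurd (Finset.mem_univ _) h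

theorem sum_first_coord {R : Type*} [CommSemiring R] (n : ℕ) (g : F → R) :
    ∑ z : Fin (n + 1) → F, g (z 0) = (Fintype.card F : R) ^ n * ∑ a : F, g a := by
  rw [← (Fin.consEquiv (fun _ : Fin (n + 1) => F)).sum_comp, Fintype.sum_prod_type, Finset.mul_sum]
  refine Finset.sum_congr rfl fun a _ => ?_
  simp [Fin.consEquiv]

open Classical in
theorem O2_sum_psi (k : ℕ) (hk : 1 ≤ k) (ψ : AddChar F ℂ) (hψ : ψ.IsPrimitive) :
    ∑ C : Matrix (Fin (k + 2)) (Fin (k + 2)) F, (if C ∈ O2 then (1 - ψ (C 1 0)) else 0) =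
      (Fintype.card F : ℂ) ^ (2 * k + 1) := by
  have h := O2_fiber_sum k hk (fun y => 1 - ψ (y 1)) (by simp)
  have h1 : ∀ C : Matrix (Fin (k + 2)) (Fin (k + 2)) F, (C *ᵥ ee 0) 1 = C 1 0 := by
    intro C
    show C 1 ⬝ᵥ (Pi.single 0 1 : Fin (k + 2) → F) = C 1 0
    rw [dotProduct_single, mul_one]
  simp only [h1] at h
  rw [h, sum_zero_coord]
  have h2 : ∀ z : Fin (k + 1) → F, (Fin.cons 0 z : Fin (k + 2) → F) 1 = z 0 := fun z => rfl
  simp only [h2]
  rw [Finset.sum_sub_distrib, sum_first_coord k (fun a => ψ a)]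
  have hψ1 : ψ ≠ 1 := by
    intro h
    have := hψ (one_ne_zero)
    rw [AddChar.mulShift_one] at this
    exact this h
  rw [AddChar.sum_eq_zero_of_ne_one hψ1]
  simp
  ring

omit [Fintype F] [DecidableEq F] in
theorem alt_ee_one_eq_zero_iff {k : ℕ} (y : Fin (k + 2) → F) :
    alt y (ee 1) = 0 ↔ ∀ i, i ≠ 1 → y i = 0 := by
  constructor
  · intro h i hi
    have := congrFun (congrFun h i) 1
    rw [alt_apply] at this
    simpa [ee, hi] using this
  · intro h
    ext i j
    rw [alt_apply]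
    by_cases hi : i = 1
    · by_cases hj : j = 1
      · subst hi; subst hj; simp [mul_comm]
      · subst hi; simp [ee, hj, h j hj]
    · by_cases hj : j = 1
      · subst hj; simp [ee, hi, h i hi]
      · simp [ee, hi, hj]

theorem card_alt_ee_one (k : ℕ) :
    (Finset.univ.filter (fun y : Fin (k + 2) → F => alt y (ee 1) = 0)).card = Fintype.card F := by
  classical
  rw [← Finset.card_univ (α := F)]
  symm
  apply Finset.card_bij (fun (a : F) _ => (Pi.single 1 a : Fin (k + 2) → F))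
  · intro a _
    rw [Finset.mem_filter, alt_ee_one_eq_zero_iff]
    exact ⟨Finset.mem_univ _, fun i hi => by simp [hi]⟩
  · intro a _ b _ h
    simpa using congrFun h 1
  · intro y hy
    rw [Finset.mem_filter, alt_ee_one_eq_zero_iff] at hy
    refine ⟨y 1, Finset.mem_univ _, ?_⟩
    funext i
    by_cases hi : i = 1
    · subst hi; simp
    · simp [hi, hy.2 i hi]

theorem O2_fixed (k : ℕ) (hk : 1 ≤ k) :
    Nat.card {C : Matrix (Fin (k + 2)) (Fin (k + 2)) F // C ∈ O2 ∧ alt (C *ᵥ ee 0) (ee 1) = 0} +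
      (Fintype.card F ^ (k + 1) - Fintype.card F) * Fintype.card F ^ k =
      Nat.card (O2 : Set (Matrix (Fin (k + 2)) (Fin (k + 2)) F)) := by
  classical
  have h := O2_fiber_sum_gen (R := ℕ) k hk
    (fun y : Fin (k + 2) → F => if alt y (ee 1) = 0 then 0 else 1) (by
      have : alt (0 : Fin (k + 2) → F) (ee 1) = 0 := by
        rw [alt_ee_one_eq_zero_iff]; intro i _; rfl
      simp [this])
  -- the right-hand side
  have hR : ∑ y : Fin (k + 2) → F, (if y 0 = 0 then (if alt y (ee 1) = 0 then 0 else 1) else 0) =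
      Fintype.card F ^ (k + 1) - Fintype.card F := by
    have h1 : ∑ y : Fin (k + 2) → F, (if y 0 = 0 then (if alt y (ee 1) = 0 then 0 else 1) else 0) +
        ∑ y : Fin (k + 2) → F, (if alt y (ee 1) = 0 then 1 else 0) =
        ∑ y : Fin (k + 2) → F, (if y 0 = 0 then 1 else 0) := by
      rw [← Finset.sum_add_distrib]
      refine Finset.sum_congr rfl fun y _ => ?_
      by_cases h1 : alt y (ee 1) = 0
      · have : y 0 = 0 := (alt_ee_one_eq_zero_iff y).1 h1 0 (by
          intro h; exact absurd h Fin.zero_ne_one)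
        simp [h1, this]
      · simp [h1]
    rw [sum_zero_coord (R := ℕ) (k + 1) (fun _ => 1)] at h1
    rw [← Finset.card_filter, card_alt_ee_one] at h1
    simp at h1
    omega
  rw [hR] at h
  have hL : Nat.card {C : Matrix (Fin (k + 2)) (Fin (k + 2)) F //
        C ∈ O2 ∧ alt (C *ᵥ ee 0) (ee 1) = 0} +
      ∑ C : Matrix (Fin (k + 2)) (Fin (k + 2)) F,
        (if C ∈ O2 then (if alt (C *ᵥ ee 0) (ee 1) = 0 then 0 else 1) else 0) =
      Nat.card (O2 : Set (Matrix (Fin (k + 2)) (Fin (k + 2)) F)) := by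
    rw [Nat.card_eq_fintype_card, Fintype.card_subtype, Nat.card_eq_fintype_card]
    have : Fintype.card (O2 : Set (Matrix (Fin (k + 2)) (Fin (k + 2)) F)) =
        (Finset.univ.filter (fun C : Matrix (Fin (k + 2)) (Fin (k + 2)) F => C ∈ O2)).card := by
      rw [← Fintype.card_subtype]
    rw [this, Finset.card_filter, Finset.card_filter, ← Finset.sum_add_distrib]
    refine Finset.sum_congr rfl fun C _ => ?_
    by_cases h1 : C ∈ O2
    · by_cases h2 : alt (C *ᵥ ee 0) (ee 1) = 0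
      · simp [h1, h2]
      · simp [h1, h2]
    · simp [h1]
  rw [← hL, h]
  simp only [Nat.cast_id]
  ring

end Cfsg.Agent.Lib.Helper78Oo2sum
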