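import Mathlib
import Cfsg.Agent.Lib.Helper44ODefs
import Cfsg.Agent.Lib.Helper21Owts
import Cfsg.Agent.Lib.Helper24Owmain
import Cfsg.Agent.Lib.Helper78Onum1
import Cfsg.Agent.Lib.Helper78Onum2
import Cfsg.Agent.Lib.Helper78Oo2sum
import Cfsg.Agent.Lib.Helper78Oo2card
import Cfsg.Agent.Lib.Helper37Ochix
import Cfsg.Agent.Lib.Helper37Ohcs
import Cfsg.Agent.Lib.Helper44Oslchar
import Cfsg.Agent.Lib.Helper21Ointdvd
import Cfsg.Agent.Lib.Helper44Oumem
import Cfsg.Agent.Lib.Helper1Ogmem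
import Cfsg.Agent.Lib.Helper1Osigma
import Cfsg.Agent.Lib.Helper44Ont
import Cfsg.Agent.Lib.Helper73Ocls
import Cfsg.Agent.Lib.Helper73Ofib
import Cfsg.Agent.Lib.Helper73Osscard
import Cfsg.Agent.Lib.Helper40SLhc
import Cfsg.Agent.Lib.Helper44SpSiegel

set_option autoImplicit false

namespace Cfsg.Agent.Lib.Helper44OMain

open Matrix Cfsg Cfsg.Agent.Lib.Helper44Wt Cfsg.Agent.Lib.Helper44Lam
  Cfsg.Agent.Lib.Helper44SLDefs Cfsg.Agent.Lib.Helper44ODefs Cfsg.Agent.Lib.Helper21Owts Cfsg.Agent.Lib.Helper24Owmain Cfsg.Agent.Lib.Helper78Onum1 Cfsg.Agent.Lib.Helper78Onum2 Cfsg.Agent.Lib.Helper78Oo2sum Cfsg.Agent.Lib.Helper78Oo2card Cfsg.Agent.Lib.Helper37Ochix Cfsg.Agent.Lib.Helper37Ohcs Cfsg.Agent.Lib.Helper44Oslchar Cfsg.Agent.Lib.Helper21Ointdvd Cfsg.Agent.Lib.Helper44Oumem Cfsg.Agent.Lib.Helper1Ogmem Cfsg.Agent.Lib.Helper1Osigma Cfsg.Agent.Lib.Helper44Ont Cfsg.Agent.Lib.Helper73Ocls Cfsg.Agent.Lib.Helper73Ofib Cfsg.Agent.Lib.Helper73Osscard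
  Cfsg.Agent.Lib.Helper40SLhc
  Cfsg.Agent.Lib.Helper4Char Cfsg.Agent.Lib.Helper4Char4

variable {F : Type*} [Field F]

theorem zero_not_mem_O2 {ι : Type*} : (0 : Matrix ι ι F) ∉ (O2 : Set (Matrix ι ι F)) := by
  rintro ⟨u, v, hind, h0⟩
  rw [LinearIndependent.pair_iff] at hind
  have hu : u ≠ 0 := by
    rintro rfl
    have := hind 1 0 (by simp)
    simp at this
  obtain ⟨i, hi⟩ := Function.ne_iff.mp hu
  have := hind (v i) (-u i) (by
    ext j
    have h1 := congrFun (congrFun h0 i) j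
    rw [alt_apply] at h1
    simp only [Matrix.zero_apply] at h1
    simp only [Pi.add_apply, Pi.smul_apply, smul_eq_mul, Pi.zero_apply]
    linear_combination h1)
  exact hi (by simpa using this.2)

theorem trace_mul_X0 (k : ℕ) (C : Matrix (Fin (k + 2)) (Fin (k + 2)) F) :
    Matrix.trace (C * X0 k F) = C 1 0 := by
  rw [X0, Matrix.trace_mul_comm, Matrix.trace_single_mul]
  simp

variable [Fintype F] [DecidableEq F]

theorem abs_main (k : ℕ) (hk : 2 ≤ k) (hq : 3 < Fintype.card F) {G : Type*} [Group G] [Finite G]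
    (u : Multiplicative (Matrix (Fin (k + 2)) (Fin (k + 2)) F) →* G) (g : sqGL (k + 2) F →* G)
    (χ : G → ℂ) (hχ : IsIrrCharacter G χ)
    (hrel : ∀ (A : sqGL (k + 2) F) (X : Matrix (Fin (k + 2)) (Fin (k + 2)) F),
      g A * u (Multiplicative.ofAdd X) = u (Multiplicative.ofAdd (mt A * X * (mt A)ᵀ)) * g A)
    (hker : ∀ X : Matrix (Fin (k + 2)) (Fin (k + 2)) F, Xᵀ = X → u (Multiplicative.ofAdd X) = 1)
    (hnt : χ (u (Multiplicative.ofAdd (X0 k F))) ≠ χ 1)
    (hconj : χ (g (slToSq (k + 2) F (x01 k F (Multiplicative.ofAdd 1)))) =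
      χ (u (Multiplicative.ofAdd (X0 k F))))
    (T : ℕ) (hT : (Subgroup.centralizer ({u (Multiplicative.ofAdd (X0 k F))} : Set G)).index = T)
    (hTR : (Fintype.card F ^ 2 - 1) * T = (Fintype.card F ^ (k + 2) - 1) *
      (Fintype.card F ^ (k + 1) + 1) * ((Fintype.card F ^ (k + 1) - 1) * (Fintype.card F ^ k + 1)))
    (D : ℕ) (hD : χ 1 = D) :
    (Fintype.card F ^ (k + 2) - 1) * (Fintype.card F ^ (k + 1) + Fintype.card F) ≤
      (Fintype.card F ^ 2 - 1) * D := by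
  classical
  by_contra hlt
  push Not at hlt
  set q := Fintype.card F with hqdef
  have hψ := AddChar.FiniteField.primitiveChar_to_Complex_isPrimitive F
  set ψ := AddChar.FiniteField.primitiveChar_to_Complex F with hψdef
  have hch := IsIrrCharacter.isCharacter hχ
  have hcl := IsIrrCharacter.isClassFunction hχ
  choose m hm using fun C : Matrix (Fin (k + 2)) (Fin (k + 2)) F => wt_nat u χ hch (lam ψ C)
  have hval : ∀ X : Matrix (Fin (k + 2)) (Fin (k + 2)) F, χ (u (Multiplicative.ofAdd X)) =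
      ∑ C : Matrix (Fin (k + 2)) (Fin (k + 2)) F, (m C : ℂ) * ψ (Matrix.trace (C * X)) := by
    intro X
    rw [wt_sum_lam ψ hψ u χ X]
    exact Finset.sum_congr rfl (fun C _ => by rw [hm])
  have hsumC : (D : ℂ) = ∑ C : Matrix (Fin (k + 2)) (Fin (k + 2)) F, (m C : ℂ) := by
    have h := hval 0
    rw [ofAdd_zero, map_one, hD] at h
    rw [h]
    exact Finset.sum_congr rfl (fun C _ => by simp)
  have hsumN : D = ∑ C : Matrix (Fin (k + 2)) (Fin (k + 2)) F, m C := by exact_mod_cast hsumC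
  have halt : ∀ C, m C ≠ 0 → IsAltM C := fun C h =>
    wt_alt ψ hψ u χ hker C (by rw [hm]; exact_mod_cast h)
  have hinv : ∀ (A : sqGL (k + 2) F) (C : Matrix (Fin (k + 2)) (Fin (k + 2)) F),
      m ((mt A)ᵀ * C * mt A) = m C := by
    intro A C
    have := wt_inv ψ u g χ hcl hrel A C
    rw [hm, hm] at this
    exact_mod_cast this
  have hne : ∃ C, C ≠ 0 ∧ m C ≠ 0 := by
    by_contra hcon
    push Not at hcon
    apply hnt
    rw [hval, hD, hsumC]
    apply Finset.sum_congr rfl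
    intro C _
    by_cases hC : C = 0
    · subst hC; simp
    · rw [hcon C hC]; simp
  have hlt2 := num1 q k D hq hk hlt
  have hsum : ∑ C : Matrix (Fin (k + 2)) (Fin (k + 2)) F, (if C = 0 then 0 else m C) <
      2 * (q ^ (k + 1) - 1) * q ^ k := by
    refine lt_of_le_of_lt ?_ hlt2
    rw [hsumN]
    apply Finset.sum_le_sum
    intro C _
    split_ifs <;> simp
  obtain ⟨h1, h0⟩ := W_main k (by omega) hq m halt hinv hne hsum
  -- the shape of `m`
  have hshape : ∀ C, m C = (if C = 0 then m 0 else 0) + (if C ∈ O2 then 1 else 0) := by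
    intro C
    by_cases hC : C = 0
    · subst hC
      rw [if_pos rfl, if_neg zero_not_mem_O2, add_zero]
    · rw [if_neg hC, zero_add]
      by_cases hO : C ∈ O2
      · rw [if_pos hO, h1 C hO]
      · rw [if_neg hO, h0 C hO hC]
  set O := Nat.card (O2 : Set (Matrix (Fin (k + 2)) (Fin (k + 2)) F)) with hOdef
  have hOsum : ∑ C : Matrix (Fin (k + 2)) (Fin (k + 2)) F, (if C ∈ O2 then 1 else 0) = O := by
    rw [hOdef, Finset.sum_boole, Nat.cast_id, Nat.card_eq_fintype_card, Fintype.card_subtype]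
  have hDO : D = m 0 + O := by
    rw [hsumN, Finset.sum_congr rfl (fun C _ => hshape C), Finset.sum_add_distrib, hOsum,
      Finset.sum_ite_eq' Finset.univ (0 : Matrix (Fin (k + 2)) (Fin (k + 2)) F) (fun _ => m 0),
      if_pos (Finset.mem_univ _)]
  -- the value at the long root element
  have ht : χ (u (Multiplicative.ofAdd (X0 k F))) = (D : ℂ) - ((q ^ (2 * k + 1) : ℕ) : ℂ) := by
    have hs := O2_sum_psi k (by omega) ψ hψ
    rw [hval, hsumC, ← hqdef] at *
    push_cast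
    rw [← hs, ← Finset.sum_sub_distrib]
    apply Finset.sum_congr rfl
    intro C _
    rw [trace_mul_X0, hshape C]
    by_cases hC : C = 0
    · subst hC
      rw [if_pos rfl, if_neg zero_not_mem_O2, if_neg zero_not_mem_O2]
      simp
    · rw [if_neg hC]
      by_cases hO : C ∈ O2
      · rw [if_pos hO, if_pos hO]; push_cast; ring
      · rw [if_neg hO, if_neg hO]; simp
  -- the Harish-Chandra restriction
  set ψ₀ := hc u 0 (g.comp (slToSq (k + 2) F)) χ with hψ₀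
  have hψc : IsCharacter (Matrix.SpecialLinearGroup (Fin (k + 2)) F) ψ₀ := by
    apply hc_char χ hch u 0 (g.comp (slToSq (k + 2) F))
    intro γ
    refine ⟨Cfsg.Agent.Lib.Helper44SpSiegel.congrGL ((slToSq (k + 2) F γ : sqGL (k + 2) F) :
      GL (Fin (k + 2)) F), ?_, fun a => by simp⟩
    intro a
    rw [MonoidHom.comp_apply, hrel, mul_inv_cancel_right]
    rfl
  have hψ1 : ψ₀ 1 = (m 0 : ℂ) := by
    rw [hψ₀, hc_one, ← lam_zero ψ, hm]
  have hw1 : ∀ C, C ∈ O2 → wt u χ (lam ψ C) = 1 := fun C hC => by rw [hm, h1 C hC]; simp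
  have hw0 : ∀ C, C ∉ O2 → C ≠ 0 → wt u χ (lam ψ C) = 0 := fun C hC hC0 => by
    rw [hm, h0 C hC hC0]; simp
  have hx := chi_x k hq ψ hψ u g χ hch hrel hker hw1 hw0
  rw [hconj, ht, ← hψ₀] at hx
  have hfix := O2_fixed (F := F) k (by omega)
  rw [← hOdef, ← hqdef] at hfix
  set Fx := Nat.card {C : Matrix (Fin (k + 2)) (Fin (k + 2)) F //
        C ∈ O2 ∧ alt (C *ᵥ ee 0) (ee 1) = 0} with hFx
  have hq1 : q ≤ q ^ (k + 1) := by
    calc q = q ^ 1 := (pow_one q).symm
      _ ≤ q ^ (k + 1) := Nat.pow_le_pow_right (by omega) (by omega)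
  have hψx : ψ₀ (x01 k F (Multiplicative.ofAdd 1)) = (m 0 : ℂ) - (q : ℂ) ^ (k + 1) := by
    have h2 : (Fx : ℂ) + ((q : ℂ) ^ (k + 1) - q) * (q : ℂ) ^ k = O := by
      have : ((Fx + (q ^ (k + 1) - q) * q ^ k : ℕ) : ℂ) = O := by rw [hfix]
      push_cast [Nat.cast_sub hq1] at this
      exact this
    have h3 : (D : ℂ) = m 0 + O := by rw [hDO]; push_cast; ring
    push_cast at hx
    have h4 : (q : ℂ) ^ (2 * k + 1) = (q : ℂ) ^ (k + 1) * (q : ℂ) ^ k := by
      rw [← pow_add]; congr 1; omega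
    have h5 : (q : ℂ) ^ (k + 1) = q * (q : ℂ) ^ k := by rw [pow_succ]; ring
    linear_combination -hx + h3 - h2 - h4 + h5
  have hqC : (q : ℂ) ^ (k + 1) ≠ 0 := by
    apply pow_ne_zero
    have : q ≠ 0 := by omega
    exact_mod_cast this
  have hm0 := sl_char_bound (k + 2) (by omega) hq ψ₀ hψc (x01 k F (Multiplicative.ofAdd 1))
    (by
      rw [hψx, hψ1]
      intro h
      apply hqC
      linear_combination -h) (m 0) hψ1
  have hdvd := int_dvd χ hχ _ D (q ^ (2 * k + 1)) T hD ht hT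
  have := num2 q k D T (m 0) O (by omega) hk (O2_card k) hDO hm0 hTR hdvd
  omega

/-- the bound for `Ω⁺_{2(k+2)}(F)` -/
theorem omega_main (k : ℕ) (hk : 2 ≤ k) (hq : 3 < Fintype.card F)
    (χ : OO (k + 2) F → ℂ) (hχ : IsIrrCharacter (OO (k + 2) F) χ) (h1 : χ 1 ≠ 1)
    (D : ℕ) (hD : χ 1 = D) :
    (Fintype.card F ^ (k + 2) - 1) * (Fintype.card F ^ (k + 1) + Fintype.card F) ≤
      (Fintype.card F ^ 2 - 1) * D := by
  have hU : ∀ X : Multiplicative (Matrix (Fin (k + 2)) (Fin (k + 2)) F),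
      uI X ∈ Cfsg.Omega F (Cfsg.quadFormPlus (k + 2) F) := uI_mem (k + 2) hq
  have hL : ∀ A : sqGL (k + 2) F,
      gI (A : GL (Fin (k + 2)) F) ∈ Cfsg.Omega F (Cfsg.quadFormPlus (k + 2) F) :=
    gI_mem (k + 2) (by omega)
  have hcl := IsIrrCharacter.isClassFunction hχ
  have hq2 : 2 ≤ Fintype.card F := by omega
  refine abs_main k hk hq (uQ hU) (gL hL) χ hχ ?_ ?_ (chi_nt k hk hU χ hχ h1) ?_ _ rfl ?_ D hD
  · intro A X
    apply Subtype.ext
    exact gI_mul_uI (A : GL (Fin (k + 2)) F) X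
  · intro X hX
    apply Subtype.ext
    exact uI_ker X hX
  · obtain ⟨σ, hσ, hσe⟩ := exists_sigma (F := F) k (by omega)
    rw [← hcl _ ⟨σ, hσ⟩]
    congr 1
    apply Subtype.ext
    exact hσe
  · rw [cls_index k hk hU]
    have h2 := fib_card (SS (k + 2) F) (fun p hp => hp.2.2.2) (SS_closed (k + 2))
    rw [SS_card] at h2
    have hpos : 0 < Fintype.card F := by omega
    apply Nat.eq_of_mul_eq_mul_left hpos
    rw [← mul_assoc, ← h2]
    ring

end Cfsg.Agent.Lib.Helper44OMain
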