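import Mathlib
import Cfsg.Agent.Lib.Helper44Four
import Cfsg.Agent.Lib.Helper44Wt
import Cfsg.Agent.Lib.Helper4Eigen

set_option autoImplicit false
set_option linter.unusedSectionVars false

/-! Abstract form of the lower bound `q^2 - q + 1` for the degrees of the small Ree groups. -/

namespace Cfsg.Agent.Lib.Helper44ReeAbs

open Cfsg Cfsg.Agent.Lib.Helper4Char Cfsg.Agent.Lib.Helper4Char4 Cfsg.Agent.Lib.Helper44Four
  Cfsg.Agent.Lib.Helper44Wt

/-- a representation whose character has zero average has zero sum of operators -/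
theorem sum_rho_eq_zero {A V : Type*} [Group A] [Fintype A] [AddCommGroup V] [Module ℂ V]
    [FiniteDimensional ℂ V] (σ : Representation ℂ A V) (h : ∑ a, σ.character a = 0) :
    ∑ a, σ a = 0 := by
  have hne : (Fintype.card A : ℂ) ≠ 0 := by exact_mod_cast Fintype.card_ne_zero
  have : Invertible (Fintype.card A : ℂ) := invertibleOfNonzero hne
  have hproj := σ.isProj_averageMap
  have htr := hproj.trace
  have hav : σ.averageMap = (Fintype.card A : ℂ)⁻¹ • ∑ a, σ a := by
    simp [Representation.averageMap, GroupAlgebra.average, map_sum]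
  have h0 : LinearMap.trace ℂ V σ.averageMap = 0 := by
    rw [hav, map_smul, map_sum]
    have : ∑ a, LinearMap.trace ℂ V (σ a) = 0 := h
    rw [this, smul_zero]
  rw [h0] at htr
  have hfin : Module.finrank ℂ σ.invariants = 0 := by exact_mod_cast htr.symm
  have hbot : σ.invariants = ⊥ := Submodule.finrank_eq_zero.mp hfin
  have hz : σ.averageMap = 0 := by
    ext v
    have := hproj.map_mem v
    rw [hbot, Submodule.mem_bot] at this
    simpa using this
  rw [hav] at hz
  have := congrArg (fun T => (Fintype.card A : ℂ) • T) hz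
  simpa [smul_smul, hne] using this

/-- a non-linear irreducible character of a simple group is faithful -/
theorem ne_degree_of_simple {G : Type*} [Group G] [Finite G] (hsimple : IsSimpleGroup G)
    (χ : G → ℂ) (hχ : IsIrrCharacter G χ) (h1 : χ 1 ≠ 1) (g : G) (hg : g ≠ 1) : χ g ≠ χ 1 := by
  classical
  intro heq
  have : Fintype G := Fintype.ofFinite _
  have hnorm := classInner_irr_self hχ
  obtain ⟨n, ρ, hirr, rfl⟩ := hχ
  rw [Representation.char_one] at heq
  have h2 : ρ g = LinearMap.id :=
    (Cfsg.Agent.Lib.Helper4Eigen.char_eq_finrank_iff ρ g).mp heq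
  have hker : g ∈ MonoidHom.ker ρ := by
    rw [MonoidHom.mem_ker, h2]; rfl
  have htop : MonoidHom.ker ρ = ⊤ := by
    rcases hsimple.eq_bot_or_eq_top_of_normal _ (MonoidHom.normal_ker ρ) with h | h
    · rw [h, Subgroup.mem_bot] at hker
      exact absurd hker hg
    · exact h
  have hall : ∀ x : G, ρ.character x = ρ.character 1 := by
    intro x
    have : x ∈ MonoidHom.ker ρ := by rw [htop]; trivial
    rw [MonoidHom.mem_ker] at this
    unfold Representation.character
    rw [this, ← map_one ρ]
  unfold classInner at hnorm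
  simp only [hall, Finset.sum_const, Finset.card_univ, nsmul_eq_mul] at hnorm
  rw [Representation.char_one, ← Nat.card_eq_fintype_card] at hnorm
  have hG : (Nat.card G : ℂ) ≠ 0 := by exact_mod_cast Nat.card_pos.ne'
  rw [Complex.conj_natCast, ← mul_assoc, inv_mul_cancel₀ hG, one_mul] at hnorm
  apply h1
  rw [Representation.char_one]
  have h3 : Module.finrank ℂ (Fin n → ℂ) * Module.finrank ℂ (Fin n → ℂ) = 1 := by
    exact_mod_cast hnorm
  have h4 : Module.finrank ℂ (Fin n → ℂ) = 1 := Nat.eq_one_of_mul_eq_one_right h3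
  rw [h4]
  simp

/-- abstract lower bound -/
theorem abs_bound {G K : Type*} [Group G] [Finite G] [Field K] [Fintype K]
    (uz : K → K → G) (t : G) (S : Subgroup G)
    (hmul : ∀ u v w z, uz u v * uz w z = uz (u + w) (v + z))
    (hx : ∀ s u v, ∃ g : G, g * uz u v * g⁻¹ = uz u (v + s * u))
    (hh : ∀ μ : K, μ ≠ 0 → ∀ v, ∃ g : G, g * uz 0 v * g⁻¹ = uz 0 (μ * v))
    (ht : ∀ v, ∃ g : G, g * t * g⁻¹ = t * uz 0 v)
    (hS8 : Nat.card S = 8) (hSt : ∀ s ∈ S, s ≠ 1 → ∃ g : G, s = g * t * g⁻¹)
    (hsimple : IsSimpleGroup G) (hne : uz 0 1 ≠ 1) (hq8 : Fintype.card K % 8 = 3)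
    (k : ℕ) (ρ : Representation ℂ G (Fin k → ℂ)) (hirr : ρ.IsIrreducible) (hk : 2 ≤ k) :
    (Fintype.card K) ^ 2 - Fintype.card K + 1 ≤ k := by
  classical
  have : Fintype G := Fintype.ofFinite _
  set q := Fintype.card K with hq
  set χ : G → ℂ := ρ.character with hχdef
  have hχ : IsIrrCharacter G χ := ⟨k, ρ, hirr, rfl⟩
  have hchar := IsIrrCharacter.isCharacter hχ
  have hcl := IsIrrCharacter.isClassFunction hχ
  have hχ1 : χ 1 = (k : ℂ) := by
    rw [hχdef, Representation.char_one]; simp
  have hχne : χ 1 ≠ 1 := by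
    rw [hχ1]; intro h
    have : k = 1 := by exact_mod_cast h
    omega
  have hz0 : uz 0 0 = 1 := by
    have := hmul 0 0 0 0
    rw [add_zero] at this
    exact mul_eq_left.mp this
  set ψ := AddChar.FiniteField.primitiveChar_to_Complex K with hψdef
  have hψ : ψ.IsPrimitive := AddChar.FiniteField.primitiveChar_to_Complex_isPrimitive K
  let zHom : Multiplicative K →* G :=
    { toFun := fun b => uz 0 (Multiplicative.toAdd b)
      map_one' := hz0
      map_mul' := fun a b => by
        show uz 0 (Multiplicative.toAdd a + Multiplicative.toAdd b) = _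
        rw [hmul, add_zero] }
  let uHom : Multiplicative (K × K) →* G :=
    { toFun := fun b => uz (Multiplicative.toAdd b).1 (Multiplicative.toAdd b).2
      map_one' := hz0
      map_mul' := fun a b => by
        show uz ((Multiplicative.toAdd a).1 + (Multiplicative.toAdd b).1)
          ((Multiplicative.toAdd a).2 + (Multiplicative.toAdd b).2) = _
        rw [hmul] }
  set f : K → ℂ := fun b => χ (uz 0 b) with hf
  have hinv : ∀ κ : K, κ ≠ 0 → ∀ c, f (κ * c) = f c := by
    intro κ hκ c
    obtain ⟨g, hg⟩ := hh κ hκ c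
    simp only [hf]
    rw [← hg, hcl]
  obtain ⟨_, hdeg, hval⟩ := two_coef ψ hψ f hinv
  obtain ⟨N0, hN0⟩ := coef_nat ψ zHom χ hchar 0
  obtain ⟨N1, hN1⟩ := coef_nat ψ zHom χ hchar 1
  have hfe : (fun c => χ (zHom (Multiplicative.ofAdd c))) = f := rfl
  rw [hfe] at hN0 hN1
  have hf0 : f 0 = χ 1 := by simp only [hf]; rw [hz0]
  rw [hN0, hN1, hf0] at hdeg
  have hq1 : 1 ≤ q := Fintype.card_pos
  have hqne : (q : ℂ) ≠ 0 := by exact_mod_cast (by omega : q ≠ 0)
  -- N1 ≠ 0
  have hN1ne : N1 ≠ 0 := by
    rintro rfl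
    apply ne_degree_of_simple hsimple χ hχ hχne (uz 0 1) hne
    have := hval 1 one_ne_zero
    rw [hN0, hN1] at this
    simp only [hf] at this
    rw [this, hdeg]
    simp
  -- divisibility by q
  let l01 : AddChar (K × K) ℂ := ψ.compAddMonoidHom (AddMonoidHom.snd K K)
  obtain ⟨c, hc⟩ := wt_nat uHom χ hchar l01
  have hsumψ : ∑ v : K, (starRingEnd ℂ) (ψ v) = 0 := by
    have h := sum_psi ψ hψ 0 1
    simp only [mul_zero, AddChar.map_zero_eq_one, one_mul, mul_one, zero_ne_one, if_false] at h
    exact h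
  have hcN : (q : ℂ) * c = N1 := by
    rw [← hc, ← hN1]
    unfold wt coef
    rw [Fintype.card_prod, Fintype.sum_prod_type]
    have hin : ∀ u : K, ∑ v : K, χ (uHom (Multiplicative.ofAdd (u, v))) * (starRingEnd ℂ) (l01 (u, v))
        = if u = 0 then ∑ v : K, f v * (starRingEnd ℂ) (ψ (1 * v)) else 0 := by
      intro u
      split_ifs with hu
      · subst hu
        apply Finset.sum_congr rfl
        intro v _
        rw [one_mul]
        rfl
      · have hconst : ∀ v : K, χ (uHom (Multiplicative.ofAdd (u, v))) = χ (uz u 0) := by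
          intro v
          obtain ⟨g, hg⟩ := hx (v / u) u 0
          show χ (uz u v) = _
          have : (0 : K) + v / u * u = v := by field_simp; ring
          rw [this] at hg
          rw [← hg, hcl]
        simp only [hconst]
        rw [← Finset.mul_sum]
        have : ∑ v : K, (starRingEnd ℂ) (l01 (u, v)) = ∑ v : K, (starRingEnd ℂ) (ψ v) := rfl
        rw [this, hsumψ, mul_zero]
    simp only [hin]
    rw [Finset.sum_ite_eq' Finset.univ (0 : K)]
    simp only [Finset.mem_univ, if_true]
    push_cast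
    field_simp
    rfl
  have hcN' : q * c = N1 := by exact_mod_cast hcN
  have hkeq : k = N0 + (q - 1) * N1 := by
    have : (k : ℂ) = ((N0 + (q - 1) * N1 : ℕ) : ℂ) := by
      rw [← hχ1, hdeg]
      push_cast [Nat.cast_sub hq1]
      ring
    exact_mod_cast this
  by_contra hcon
  push Not at hcon
  have hq3 : 3 ≤ q := by omega
  have hsq : q ^ 2 - q = (q - 1) * q := by
    have key : ∀ r : ℕ, 1 ≤ r → r ^ 2 - r = (r - 1) * r := by
      intro r hr
      obtain ⟨j, rfl⟩ : ∃ j, r = j + 1 := ⟨r - 1, by omega⟩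
      simp only [Nat.add_sub_cancel]
      have : (j + 1) ^ 2 = j * (j + 1) + (j + 1) := by ring
      omega
    exact key q hq1
  have hc1 : 1 ≤ c := by
    rcases Nat.eq_zero_or_pos c with h | h
    · subst h; simp at hcN'; exact absurd hcN'.symm hN1ne
    · exact h
  have hpos : 0 < (q - 1) * q := Nat.mul_pos (by omega) (by omega)
  have hle : N0 + (q - 1) * q * c ≤ (q - 1) * q := by
    have : k ≤ (q - 1) * q := by omega
    rw [hkeq, ← hcN', ← mul_assoc] at this
    exact this
  have hc_le : c ≤ 1 := by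
    by_contra h
    push Not at h
    have : (q - 1) * q * 2 ≤ (q - 1) * q * c := Nat.mul_le_mul_left _ h
    omega
  have hc_eq : c = 1 := le_antisymm hc_le hc1
  subst hc_eq
  have hN00 : N0 = 0 := by omega
  subst hN00
  have hk' : k = (q - 1) * q := by
    rw [hkeq, ← hcN']; ring
  -- the sum over the centre vanishes
  have hsum0 : ∑ v : K, f v = 0 := by
    have h := hN0
    unfold coef at h
    simp only [zero_mul, AddChar.map_zero_eq_one, map_one, mul_one, Nat.cast_zero] at h
    rcases mul_eq_zero.mp h with h | h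
    · exact absurd (inv_eq_zero.mp h) hqne
    · exact h
  have hop : ∑ a : Multiplicative K, (ρ.comp zHom) a = 0 := by
    apply sum_rho_eq_zero (σ := (ρ.comp zHom : Representation ℂ (Multiplicative K) (Fin k → ℂ)))
    rw [← Equiv.sum_comp Multiplicative.ofAdd]
    exact hsum0
  have hχt : χ t = 0 := by
    have h1 : ∑ v : K, χ (t * uz 0 v) = 0 := by
      have h2 : ∀ v : K, χ (t * uz 0 v) =
          LinearMap.trace ℂ (Fin k → ℂ) (ρ t * (ρ.comp zHom) (Multiplicative.ofAdd v)) := by
        intro v
        show LinearMap.trace ℂ (Fin k → ℂ) (ρ (t * uz 0 v)) = _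
        rw [map_mul]
        rfl
      simp only [h2]
      rw [← map_sum, ← Finset.mul_sum, Equiv.sum_comp Multiplicative.ofAdd
        (fun a => (ρ.comp zHom) a), hop, mul_zero, map_zero]
    have h3 : ∀ v : K, χ (t * uz 0 v) = χ t := by
      intro v
      obtain ⟨g, hg⟩ := ht v
      rw [← hg, hcl]
    simp only [h3, Finset.sum_const, Finset.card_univ, nsmul_eq_mul] at h1
    rcases mul_eq_zero.mp h1 with h | h
    · exact absurd h hqne
    · exact h
  -- restriction to the Sylow 2-subgroup
  have : Fintype S := Fintype.ofFinite _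
  obtain ⟨n, hn⟩ := IsCharacter.classInner_nat (IsCharacter.restrict S hchar)
    (IsCharacter.one (G := S))
  unfold classInner at hn
  rw [hS8] at hn
  have hsumS : ∑ s : S, (fun x : S => χ x) s * (starRingEnd ℂ) ((1 : S → ℂ) s) = k := by
    rw [Finset.sum_eq_single (1 : S)]
    · simp [hχ1]
    · intro s _ hs
      have hs' : (s : G) ≠ 1 := fun h => hs (Subtype.ext h)
      obtain ⟨g, hg⟩ := hSt s s.2 hs'
      simp only [Pi.one_apply, map_one, mul_one]
      rw [hg, hcl, hχt]
    · intro h; exact absurd (Finset.mem_univ _) h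
  have hk8 : k = 8 * n := by
    have h5 : ((8 : ℕ) : ℂ)⁻¹ * (k : ℂ) = n := by
      rw [← hn, ← hsumS]
    have h6 : (k : ℂ) = ((8 * n : ℕ) : ℂ) := by
      push_cast
      push_cast at h5
      rw [← h5]
      field_simp
    exact_mod_cast h6
  have hmod : ((q - 1) * q) % 8 = 6 := by
    have h1 : (q - 1) % 8 = 2 := by omega
    rw [Nat.mul_mod, h1, hq8]
  omega

end Cfsg.Agent.Lib.Helper44ReeAbs
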