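import Mathlib
import Cfsg.Agent.S0283
import Cfsg.Agent.Lib.Helper4Eigen
import Cfsg.Agent.Lib.Helper4Char4

set_option autoImplicit false

namespace Cfsg.Agent.Lib.Helper44SUKer

open Cfsg Cfsg.Agent.Lib.Helper4Char Cfsg.Agent.Lib.Helper4Char4

variable {F : Type*} [Field F] [Fintype F] {q : ℕ} (hF : Fintype.card F = q ^ 2) {n : ℕ}

include hF in
/-- the kernel of a non-linear irreducible character of `SU n` is central -/
theorem mem_center_of_char_eq (hn : 3 ≤ n) (h32 : ¬ (n = 3 ∧ q = 2))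
    (χ : ↥(Cfsg.SU n F q) → ℂ) (hχ : IsIrrCharacter ↥(Cfsg.SU n F q) χ) (h1 : χ 1 ≠ 1)
    (g : ↥(Cfsg.SU n F q)) (hg : χ g = χ 1) : g ∈ Subgroup.center ↥(Cfsg.SU n F q) := by
  classical
  have : Fintype ↥(Cfsg.SU n F q) := Fintype.ofFinite _
  have hnorm := classInner_irr_self hχ
  obtain ⟨d, ρ, hirr, rfl⟩ := hχ
  have hsimple := Cfsg.Agent.S0283.result hF n hn h32
  have hperf := Cfsg.Agent.S0283.perfect hF n hn h32
  rw [Representation.char_one] at hg
  have h2 : ρ g = LinearMap.id :=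
    (Cfsg.Agent.Lib.Helper4Eigen.char_eq_finrank_iff ρ g).mp hg
  have hker : g ∈ MonoidHom.ker ρ := by
    rw [MonoidHom.mem_ker, h2]; rfl
  set Z := Subgroup.center ↥(Cfsg.SU n F q) with hZ
  have hnormal : ((MonoidHom.ker ρ).map (QuotientGroup.mk' Z)).Normal :=
    Subgroup.Normal.map (MonoidHom.normal_ker ρ) _ (QuotientGroup.mk'_surjective Z)
  rcases hsimple.eq_bot_or_eq_top_of_normal _ hnormal with h | h
  · have h3 : QuotientGroup.mk' Z g ∈ (MonoidHom.ker ρ).map (QuotientGroup.mk' Z) :=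
      Subgroup.mem_map_of_mem _ hker
    rw [h, Subgroup.mem_bot] at h3
    exact (QuotientGroup.eq_one_iff g).mp h3
  · exfalso
    have hdec : ∀ x : ↥(Cfsg.SU n F q), ∃ z ∈ Z, ρ x = ρ z := by
      intro x
      have h3 : QuotientGroup.mk' Z x ∈ (MonoidHom.ker ρ).map (QuotientGroup.mk' Z) := by
        rw [h]; trivial
      obtain ⟨y, hy, hyx⟩ := h3
      have h4 : y⁻¹ * x ∈ Z := by
        rw [← QuotientGroup.eq]
        exact hyx
      refine ⟨y⁻¹ * x, h4, ?_⟩
      have hy' : y⁻¹ ∈ MonoidHom.ker ρ := Subgroup.inv_mem _ hy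
      rw [map_mul, MonoidHom.mem_ker.mp hy', one_mul]
    have hcomm : ∀ x y : ↥(Cfsg.SU n F q), ρ x * ρ y = ρ y * ρ x := by
      intro x y
      obtain ⟨z, hz, hxz⟩ := hdec x
      rw [hxz, ← map_mul, ← map_mul]
      congr 1
      exact (Subgroup.mem_center_iff.mp hz y).symm
    have htop : MonoidHom.ker ρ = ⊤ := by
      rw [eq_top_iff, ← hperf, commutator_eq_closure, Subgroup.closure_le]
      rintro _ ⟨x, y, rfl⟩
      rw [SetLike.mem_coe, MonoidHom.mem_ker, commutatorElement_def, map_mul, map_mul, map_mul,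
        hcomm x y, ← map_mul, ← map_mul, ← map_mul]
      have : y * x * x⁻¹ * y⁻¹ = 1 := by group
      rw [this, map_one]
    have hall : ∀ g : ↥(Cfsg.SU n F q), ρ.character g = ρ.character 1 := by
      intro g
      have : g ∈ MonoidHom.ker ρ := by rw [htop]; trivial
      rw [MonoidHom.mem_ker] at this
      unfold Representation.character
      rw [this, ← map_one ρ]
    unfold classInner at hnorm
    simp only [hall, Finset.sum_const, Finset.card_univ, nsmul_eq_mul] at hnorm
    rw [Representation.char_one, ← Nat.card_eq_fintype_card] at hnorm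
    have hG : (Nat.card ↥(Cfsg.SU n F q) : ℂ) ≠ 0 := by exact_mod_cast Nat.card_pos.ne'
    rw [Complex.conj_natCast, ← mul_assoc, inv_mul_cancel₀ hG, one_mul] at hnorm
    apply h1
    rw [Representation.char_one]
    have h3 : Module.finrank ℂ (Fin d → ℂ) * Module.finrank ℂ (Fin d → ℂ) = 1 := by
      exact_mod_cast hnorm
    have h4 : Module.finrank ℂ (Fin d → ℂ) = 1 := Nat.eq_one_of_mul_eq_one_right h3
    rw [h4]
    simp

end Cfsg.Agent.Lib.Helper44SUKer
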