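import Mathlib
import Cfsg.Agent.Lib.Helper44Wt
import Cfsg.Agent.Lib.Helper44Lam
import Cfsg.Agent.Lib.Helper44HermOrb

set_option autoImplicit false

namespace Cfsg.Agent.Lib.Helper44WtBound

open Matrix Cfsg Cfsg.Agent.Lib.Helper4Char Cfsg.Agent.Lib.Helper4Char4
  Cfsg.Agent.Lib.Helper17Herm Cfsg.Agent.Lib.Helper44SUEven Cfsg.Agent.Lib.Helper44Lam
  Cfsg.Agent.Lib.Helper44Wt Cfsg.Agent.Lib.Helper44HermOrb

variable {F : Type*} [Field F] (σ : F →+* F) {k : ℕ}

/-- the elementary matrix used for the congruences -/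
def elA (i : Fin k) (t : Fin k → F) (ht : t i = 0) : SpecialLinearGroup (Fin k) F :=
  ⟨1 + vecMulVec (Pi.single i 1) (fun l => σ (t l)), by
    rw [vecMulVec_eq Unit, det_one_add_replicateCol_mul_replicateRow]
    simp [ht]⟩

theorem elA_apply (i : Fin k) (t : Fin k → F) (ht : t i = 0) (a b : Fin k) :
    (elA σ i t ht : Matrix (Fin k) (Fin k) F) a b =
      (if a = b then 1 else 0) + (if a = i then σ (t b) else 0) := by
  show (1 + vecMulVec (Pi.single i 1) (fun l => σ (t l)) : Matrix (Fin k) (Fin k) F) a b = _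
  rw [Matrix.add_apply, Matrix.one_apply, vecMulVec_apply, Pi.single_apply]
  split_ifs <;> simp

theorem elA_congr (hσ2 : ∀ a : F, σ (σ a) = a) (i : Fin k) (t : Fin k → F) (ht : t i = 0)
    (B : Matrix (Fin k) (Fin k) F) :
    adj σ (elA σ i t ht : Matrix (Fin k) (Fin k) F) * B * (elA σ i t ht : Matrix _ _ F) =
      op σ i t B := by
  ext j l
  rw [Matrix.mul_apply]
  simp only [Matrix.mul_apply, adj_apply, elA_apply, op]
  simp only [map_add, apply_ite σ, map_one, map_zero, hσ2, add_mul, mul_add, ite_mul, mul_ite,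
    one_mul, zero_mul, mul_one, mul_zero, Finset.sum_add_distrib, Finset.sum_ite_eq,
    Finset.sum_ite_eq', Finset.mem_univ, if_true]
  ring

/-- congruence as a permutation of the space of matrices -/
def congrEquiv (A : SpecialLinearGroup (Fin k) F) :
    Matrix (Fin k) (Fin k) F ≃ Matrix (Fin k) (Fin k) F where
  toFun T := (A : Matrix _ _ F) * T * adj σ (A : Matrix _ _ F)
  invFun T := ((A⁻¹ : SpecialLinearGroup (Fin k) F) : Matrix _ _ F) * T *
    adj σ ((A⁻¹ : SpecialLinearGroup (Fin k) F) : Matrix _ _ F)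
  left_inv T := by
    show ((A⁻¹ : SpecialLinearGroup (Fin k) F) : Matrix _ _ F) *
      ((A : Matrix _ _ F) * T * adj σ (A : Matrix _ _ F)) *
      adj σ ((A⁻¹ : SpecialLinearGroup (Fin k) F) : Matrix _ _ F) = T
    rw [Matrix.mul_assoc, Matrix.mul_assoc, Matrix.mul_assoc, ← adj_mul, coe_inv_mul, adj_one,
      Matrix.mul_one, ← Matrix.mul_assoc, coe_inv_mul, Matrix.one_mul]
  right_inv T := by
    show (A : Matrix _ _ F) * (((A⁻¹ : SpecialLinearGroup (Fin k) F) : Matrix _ _ F) * T *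
      adj σ ((A⁻¹ : SpecialLinearGroup (Fin k) F) : Matrix _ _ F)) * adj σ (A : Matrix _ _ F) = T
    rw [Matrix.mul_assoc, Matrix.mul_assoc, Matrix.mul_assoc, ← adj_mul, coe_mul_inv, adj_one,
      Matrix.mul_one, ← Matrix.mul_assoc, coe_mul_inv, Matrix.one_mul]

theorem congrEquiv_apply (A : SpecialLinearGroup (Fin k) F) (T : Matrix (Fin k) (Fin k) F) :
    congrEquiv σ A T = (A : Matrix _ _ F) * T * adj σ (A : Matrix _ _ F) := rfl

variable [Fintype F] [DecidableEq F] {G : Type*} [Group G]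

/-- the set of weights is closed under congruences -/
theorem closed_weights (hσ2 : ∀ a : F, σ (σ a) = a)
    (ψ : AddChar F ℂ) (hψ : ψ.IsPrimitive) (hinv : ∀ x, ψ (σ x) = ψ x)
    (u : Multiplicative (Matrix (Fin k) (Fin k) F) →* G) (χ : G → ℂ)
    (hker : ∀ X, u (Multiplicative.ofAdd (X - adj σ X)) = 1)
    (hconj : ∀ (A : SpecialLinearGroup (Fin k) F) (T : Matrix (Fin k) (Fin k) F),
      χ (u (Multiplicative.ofAdd ((A : Matrix _ _ F) * T * adj σ (A : Matrix _ _ F)))) =
        χ (u (Multiplicative.ofAdd T))) :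
    Closed σ {C | wt u χ (lam ψ C) ≠ 0} := by
  constructor
  · intro C hC j l
    have h1 : adj σ C = C := by
      apply herm_of_trivial σ hσ2 ψ hψ hinv
      intro X
      exact wt_ker u χ _ _ (hker X) hC
    have := congrFun (congrFun h1 l) j
    rwa [adj_apply] at this
  · intro C hC i t ht
    show wt u χ (lam ψ (op σ i t C)) ≠ 0
    have : wt u χ (lam ψ (op σ i t C)) = wt u χ (lam ψ C) := by
      apply wt_conj u χ (congrEquiv σ (elA σ i t ht)) (fun a => hconj _ a)
      intro T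
      rw [lam_apply, lam_apply, congrEquiv_apply, ← elA_congr σ hσ2 i t ht]
      congr 1
      rw [Matrix.mul_assoc, Matrix.mul_assoc, Matrix.trace_mul_comm]
      simp only [Matrix.mul_assoc]
    rw [this]
    exact hC

/-- the abstract degree bound from the weights on a space of hermitian matrices -/
theorem weight_bound {q : ℕ} (hF : Fintype.card F = q ^ 2) (hσq : ∀ x, σ x = x ^ q)
    (hσ : σ ≠ RingHom.id F) (hσ2 : ∀ a : F, σ (σ a) = a) (hk : 2 ≤ k)
    (ψ : AddChar F ℂ) (hψ : ψ.IsPrimitive) (hinv : ∀ x, ψ (σ x) = ψ x)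
    (u : Multiplicative (Matrix (Fin k) (Fin k) F) →* G) (χ : G → ℂ) (hχ : IsCharacter G χ)
    (hker : ∀ X, u (Multiplicative.ofAdd (X - adj σ X)) = 1)
    (hconj : ∀ (A : SpecialLinearGroup (Fin k) F) (T : Matrix (Fin k) (Fin k) F),
      χ (u (Multiplicative.ofAdd ((A : Matrix _ _ F) * T * adj σ (A : Matrix _ _ F)))) =
        χ (u (Multiplicative.ofAdd T)))
    (m d : ℕ) (hd : χ 1 = d)
    (hmult : ∀ C : Matrix (Fin k) (Fin k) F, C ≠ 0 → adj σ C = C → ∀ n : ℕ,
      wt u χ (lam ψ C) = n → n ≠ 0 → m ≤ n)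
    (hnt : ∃ T, χ (u (Multiplicative.ofAdd T)) ≠ χ 1) :
    m * (q ^ (2 * k) - 1) ≤ (q + 1) * d := by
  classical
  have hcl := closed_weights σ hσ2 ψ hψ hinv u χ hker hconj
  obtain ⟨B, hB, hB0⟩ : ∃ B : Matrix (Fin k) (Fin k) F, wt u χ (lam ψ B) ≠ 0 ∧ B ≠ 0 := by
    by_contra hcon
    push Not at hcon
    obtain ⟨T, hT⟩ := hnt
    apply hT
    apply const_of_wt_zero
    intro l hl
    obtain ⟨C, rfl⟩ := lam_surjective ψ hψ l
    by_contra h0
    apply hl
    rw [hcon C h0, lam_zero]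
  set S : Finset (Matrix (Fin k) (Fin k) F) :=
    Finset.univ.filter (fun C => wt u χ (lam ψ C) ≠ 0 ∧ C ≠ 0) with hS
  have h1 := hcl.card_bound hF hσq hσ hσ2 hk B hB hB0 S (by
    intro C hC hC0
    rw [hS, Finset.mem_filter]
    exact ⟨Finset.mem_univ _, hC, hC0⟩)
  have h2 : m * (S.image (lam ψ)).card ≤ d := by
    apply card_mul_le u χ hχ _ m d hd
    intro l hl n hn
    rw [Finset.mem_image] at hl
    obtain ⟨C, hC, rfl⟩ := hl
    rw [hS, Finset.mem_filter] at hC
    apply hmult C hC.2.2 _ n hn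
    · intro h0
      apply hC.2.1
      rw [hn, h0]; simp
    · ext a b
      rw [adj_apply]
      exact hcl.herm C hC.2.1 b a
  rw [Finset.card_image_of_injective _ (lam_injective ψ hψ)] at h2
  calc m * (q ^ (2 * k) - 1) ≤ m * ((q + 1) * S.card) := Nat.mul_le_mul_left _ h1
    _ = (q + 1) * (m * S.card) := by ring
    _ ≤ (q + 1) * d := Nat.mul_le_mul_left _ h2

end Cfsg.Agent.Lib.Helper44WtBound
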