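import Mathlib
import Cfsg.Agent.Lib.Helper44WtBound
import Cfsg.Agent.Lib.Helper44SUKer

set_option autoImplicit false

namespace Cfsg.Agent.Lib.Helper44Siegel

open Matrix Cfsg Cfsg.Agent.Lib.Helper4Char Cfsg.Agent.Lib.Helper4Char4
  Cfsg.Agent.Lib.Helper17Herm Cfsg.Agent.Lib.Helper17HermC
  Cfsg.Agent.Lib.Helper44SUEven Cfsg.Agent.Lib.Helper44Lam
  Cfsg.Agent.Lib.Helper44Wt Cfsg.Agent.Lib.Helper44HermOrb Cfsg.Agent.Lib.Helper44WtBound
  Cfsg.Agent.Lib.Helper44SUKer

variable {F : Type*} [Field F] [Fintype F] {q : ℕ} (hF : Fintype.card F = q ^ 2) {k n : ℕ}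
variable (Θ : SpecialLinearGroup (Fin k ⊕ Fin k) F →* SpecialLinearGroup (Fin n) F)
  (hmem : ∀ X : SpecialLinearGroup (Fin k ⊕ Fin k) F,
    (X : Matrix (Fin k ⊕ Fin k) (Fin k ⊕ Fin k) F)ᵀ * Jm k *
      (X : Matrix (Fin k ⊕ Fin k) (Fin k ⊕ Fin k) F).map (sig hF) = Jm k → Θ X ∈ Cfsg.SU n F q)
  (ε : F) (hε : sig hF ε = -ε)

/-- the skew-hermitian matrix attached to a matrix -/
noncomputable def skw (T : Matrix (Fin k) (Fin k) F) : Matrix (Fin k) (Fin k) F := ε • (T + adj (sig hF) T)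

include hε in
theorem skw_skew (T : Matrix (Fin k) (Fin k) F) :
    skw hF ε T + adj (sig hF) (skw hF ε T) = 0 := by
  unfold skw
  rw [adj_smul, adj_add, adj_adj _ (sig_sig hF), hε, add_comm (adj (sig hF) T) T, neg_smul,
    add_neg_cancel]

theorem skw_add (T T' : Matrix (Fin k) (Fin k) F) :
    skw hF ε (T + T') = skw hF ε T + skw hF ε T' := by
  unfold skw
  rw [adj_add, ← smul_add]
  congr 1
  abel

theorem skw_zero : skw hF ε (0 : Matrix (Fin k) (Fin k) F) = 0 := by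
  have := skw_add hF ε (0 : Matrix (Fin k) (Fin k) F) 0
  rw [add_zero] at this
  exact left_eq_add.mp this

/-- the centre of the Siegel radical, parametrised by all matrices -/
noncomputable def uHom : Multiplicative (Matrix (Fin k) (Fin k) F) →* ↥(Cfsg.SU n F q) where
  toFun T := ⟨Θ (xS (skw hF ε (Multiplicative.toAdd T))),
    hmem _ (xS_form _ _ (skw_skew hF ε hε _))⟩
  map_one' := by
    apply Subtype.ext
    show Θ (xS (skw hF ε 0)) = 1
    rw [skw_zero, xS_zero, map_one]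
  map_mul' T T' := by
    apply Subtype.ext
    show Θ (xS (skw hF ε (Multiplicative.toAdd T + Multiplicative.toAdd T'))) =
      Θ (xS (skw hF ε (Multiplicative.toAdd T))) * Θ (xS (skw hF ε (Multiplicative.toAdd T')))
    rw [skw_add, ← xS_mul, map_mul]

theorem uHom_coe (T : Matrix (Fin k) (Fin k) F) :
    ((uHom hF Θ hmem ε hε (Multiplicative.ofAdd T) : ↥(Cfsg.SU n F q)) :
      SpecialLinearGroup (Fin n) F) = Θ (xS (skw hF ε T)) := rfl

/-- the Levi elements -/
noncomputable def lev (A : SpecialLinearGroup (Fin k) F) : ↥(Cfsg.SU n F q) :=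
  ⟨Θ (gA (sig hF) A), hmem _ (gA_form _ (sig_sig hF) A)⟩

theorem lev_coe (A : SpecialLinearGroup (Fin k) F) :
    ((lev hF Θ hmem A : ↥(Cfsg.SU n F q)) : SpecialLinearGroup (Fin n) F) =
      Θ (gA (sig hF) A) := rfl

theorem skw_congr (A T : Matrix (Fin k) (Fin k) F) :
    A * skw hF ε T * adj (sig hF) A = skw hF ε (A * T * adj (sig hF) A) := by
  unfold skw
  rw [adj_mul, adj_mul, adj_adj _ (sig_sig hF), Matrix.mul_smul, Matrix.smul_mul, Matrix.mul_add,
    Matrix.add_mul, Matrix.mul_assoc A (adj (sig hF) T)]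

theorem lev_mul (A : SpecialLinearGroup (Fin k) F) (T : Matrix (Fin k) (Fin k) F) :
    lev hF Θ hmem A * uHom hF Θ hmem ε hε (Multiplicative.ofAdd T) =
      uHom hF Θ hmem ε hε (Multiplicative.ofAdd
        ((A : Matrix _ _ F) * T * adj (sig hF) (A : Matrix _ _ F))) * lev hF Θ hmem A := by
  apply Subtype.ext
  rw [Subgroup.coe_mul, Subgroup.coe_mul, uHom_coe, uHom_coe, lev_coe, ← map_mul, ← map_mul,
    gA_xS, skw_congr]

theorem uHom_ker (X : Matrix (Fin k) (Fin k) F) :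
    uHom hF Θ hmem ε hε (Multiplicative.ofAdd (X - adj (sig hF) X)) = 1 := by
  apply Subtype.ext
  show Θ (xS (skw hF ε (X - adj (sig hF) X))) = 1
  have : skw hF ε (X - adj (sig hF) X) = 0 := by
    unfold skw
    have h : adj (sig hF) (X - adj (sig hF) X) = adj (sig hF) X - X := by
      ext i j
      simp [adj_apply, sig_sig hF]
    rw [h]
    simp
  rw [this, xS_zero, map_one]

theorem char_conj (χ : ↥(Cfsg.SU n F q) → ℂ) (hχ : IsClassFunction ↥(Cfsg.SU n F q) χ)
    (A : SpecialLinearGroup (Fin k) F) (T : Matrix (Fin k) (Fin k) F) :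
    χ (uHom hF Θ hmem ε hε (Multiplicative.ofAdd
        ((A : Matrix _ _ F) * T * adj (sig hF) (A : Matrix _ _ F)))) =
      χ (uHom hF Θ hmem ε hε (Multiplicative.ofAdd T)) := by
  rw [← hχ (uHom hF Θ hmem ε hε (Multiplicative.ofAdd T)) (lev hF Θ hmem A), lev_mul,
    mul_inv_cancel_right]

/-- the centre of the Siegel radical is not central in the group -/
theorem not_central (hinj : Function.Injective Θ) (hε0 : ε ≠ 0) (hk : 2 ≤ k) :
    ∃ T : Matrix (Fin k) (Fin k) F,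
      uHom hF Θ hmem ε hε (Multiplicative.ofAdd T) ∉ Subgroup.center ↥(Cfsg.SU n F q) := by
  classical
  obtain ⟨β, hβ⟩ := trace_surj (sig hF) (sig_ne_id hF) (sig_sig hF) 1 (map_one _)
  set i0 : Fin k := ⟨0, by omega⟩ with hi0
  set i1 : Fin k := ⟨1, by omega⟩ with hi1
  have h01 : i0 ≠ i1 := by
    intro h
    have := congrArg Fin.val h
    simp [hi0, hi1] at this
  refine ⟨Matrix.single i0 i0 β, fun hc => ?_⟩
  set A := elA (sig hF) i1 (Pi.single i0 1) (by rw [Pi.single_apply, if_neg h01.symm]) with hA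
  have h1 := lev_mul hF Θ hmem ε hε A (Matrix.single i0 i0 β)
  rw [Subgroup.mem_center_iff.mp hc (lev hF Θ hmem A)] at h1
  have h2 := mul_right_cancel h1
  have h3 := congrArg Subtype.val h2
  rw [uHom_coe, uHom_coe] at h3
  have h4 := xS_injective (hinj h3)
  have hs : skw hF ε (Matrix.single i0 i0 β) = Matrix.single i0 i0 ε := by
    unfold skw
    ext a b
    simp only [Matrix.smul_apply, Matrix.add_apply, adj_apply, Matrix.single_apply, smul_eq_mul]
    by_cases h : i0 = a ∧ i0 = b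
    · rw [if_pos h, if_pos ⟨h.2, h.1⟩, hβ, mul_one, if_pos h]
    · rw [if_neg h, if_neg (fun h' => h ⟨h'.2, h'.1⟩), map_zero, add_zero, mul_zero, if_neg h]
  rw [← skw_congr, hs] at h4
  have h5 := congrFun (congrFun h4 i1) i0
  rw [Matrix.single_apply, if_neg (by rintro ⟨h, -⟩; exact h01 h), Matrix.mul_apply] at h5
  simp only [Matrix.mul_apply, adj_apply, hA, elA_apply, Matrix.single_apply] at h5
  simp only [mul_ite, mul_zero, ite_and, Finset.sum_ite_eq, Finset.mem_univ, if_true,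
    ite_mul, zero_mul, h01, h01.symm, if_false, Pi.single_eq_same, map_one, zero_add, add_zero,
    one_mul, mul_one] at h5
  exact hε0 h5.symm

variable [DecidableEq F]

/-- the degree bound coming from the weights of the centre of the Siegel radical -/
theorem siegel_bound (hinj : Function.Injective Θ) (hε0 : ε ≠ 0) (hk : 2 ≤ k) (hn : 3 ≤ n)
    (h32 : ¬ (n = 3 ∧ q = 2))
    (ψ : AddChar F ℂ) (hψ : ψ.IsPrimitive) (hinv : ∀ x, ψ (sig hF x) = ψ x)
    (χ : ↥(Cfsg.SU n F q) → ℂ) (hχ : IsIrrCharacter ↥(Cfsg.SU n F q) χ) (h1 : χ 1 ≠ 1)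
    (m d : ℕ) (hd : χ 1 = d)
    (hmult : ∀ C : Matrix (Fin k) (Fin k) F, C ≠ 0 → adj (sig hF) C = C → ∀ j : ℕ,
      wt (uHom hF Θ hmem ε hε) χ (lam ψ C) = j → j ≠ 0 → m ≤ j) :
    m * (q ^ (2 * k) - 1) ≤ (q + 1) * d := by
  apply weight_bound (sig hF) hF (sig_apply hF) (sig_ne_id hF) (sig_sig hF) hk ψ hψ hinv
    (uHom hF Θ hmem ε hε) χ (IsIrrCharacter.isCharacter hχ) (uHom_ker hF Θ hmem ε hε)
    (char_conj hF Θ hmem ε hε χ (IsIrrCharacter.isClassFunction hχ)) m d hd hmult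
  obtain ⟨T, hT⟩ := not_central hF Θ hmem ε hε hinj hε0 hk
  exact ⟨T, fun h => hT (mem_center_of_char_eq hF hn h32 χ hχ h1 _ h)⟩

end Cfsg.Agent.Lib.Helper44Siegel
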