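import Mathlib
import Cfsg.Agent.Lib.Helper44WtBound

set_option autoImplicit false

namespace Cfsg.Agent.Lib.Helper44WtBound2

open Matrix Cfsg Cfsg.Agent.Lib.Helper4Char Cfsg.Agent.Lib.Helper4Char4
  Cfsg.Agent.Lib.Helper17Herm Cfsg.Agent.Lib.Helper44SUEven Cfsg.Agent.Lib.Helper44Lam
  Cfsg.Agent.Lib.Helper44Wt Cfsg.Agent.Lib.Helper44HermOrb Cfsg.Agent.Lib.Helper44WtBound

variable {F : Type*} [Field F] (σ : F →+* F) {k : ℕ}
variable [Fintype F] {G : Type*} [Group G]

/-- the set of weights of a given nonzero multiplicity is closed under congruences -/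
theorem closed_level (hσ2 : ∀ a : F, σ (σ a) = a)
    (ψ : AddChar F ℂ) (hψ : ψ.IsPrimitive) (hinv : ∀ x, ψ (σ x) = ψ x)
    (u : Multiplicative (Matrix (Fin k) (Fin k) F) →* G) (χ : G → ℂ)
    (hker : ∀ X, u (Multiplicative.ofAdd (X - adj σ X)) = 1)
    (hconj : ∀ (A : SpecialLinearGroup (Fin k) F) (T : Matrix (Fin k) (Fin k) F),
      χ (u (Multiplicative.ofAdd ((A : Matrix _ _ F) * T * adj σ (A : Matrix _ _ F)))) =
        χ (u (Multiplicative.ofAdd T))) (z : ℂ) (hz : z ≠ 0) :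
    Closed σ {C | wt u χ (lam ψ C) = z} := by
  constructor
  · intro C hC j l
    have hC' : wt u χ (lam ψ C) ≠ 0 := by
      rw [show wt u χ (lam ψ C) = z from hC]; exact hz
    have h1 : adj σ C = C := by
      apply herm_of_trivial σ hσ2 ψ hψ hinv
      intro X
      exact wt_ker u χ _ _ (hker X) hC'
    have := congrFun (congrFun h1 l) j
    rwa [adj_apply] at this
  · intro C hC i t ht
    show wt u χ (lam ψ (op σ i t C)) = z
    have : wt u χ (lam ψ (op σ i t C)) = wt u χ (lam ψ C) := by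
      apply wt_conj u χ (congrEquiv σ (elA σ i t ht)) (fun a => hconj _ a)
      intro T
      rw [lam_apply, lam_apply, congrEquiv_apply, ← elA_congr σ hσ2 i t ht]
      congr 1
      rw [Matrix.mul_assoc, Matrix.mul_assoc, Matrix.trace_mul_comm]
      simp only [Matrix.mul_assoc]
    rw [this]
    exact hC

/-- to bound multiplicities it suffices to treat matrices with a nonzero diagonal entry -/
theorem mult_of_diag (hσ : σ ≠ RingHom.id F) (hσ2 : ∀ a : F, σ (σ a) = a)
    (ψ : AddChar F ℂ) (hψ : ψ.IsPrimitive) (hinv : ∀ x, ψ (σ x) = ψ x)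
    (u : Multiplicative (Matrix (Fin k) (Fin k) F) →* G) (χ : G → ℂ)
    (hker : ∀ X, u (Multiplicative.ofAdd (X - adj σ X)) = 1)
    (hconj : ∀ (A : SpecialLinearGroup (Fin k) F) (T : Matrix (Fin k) (Fin k) F),
      χ (u (Multiplicative.ofAdd ((A : Matrix _ _ F) * T * adj σ (A : Matrix _ _ F)))) =
        χ (u (Multiplicative.ofAdd T))) (m : ℕ)
    (hdiag : ∀ (C : Matrix (Fin k) (Fin k) F) (a : Fin k), C a a ≠ 0 → σ (C a a) = C a a →
      ∀ j : ℕ, wt u χ (lam ψ C) = j → j ≠ 0 → m ≤ j)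
    (C : Matrix (Fin k) (Fin k) F) (hC : C ≠ 0) (j : ℕ) (hj : wt u χ (lam ψ C) = j)
    (hj0 : j ≠ 0) : m ≤ j := by
  have hcl := closed_level σ hσ2 ψ hψ hinv u χ hker hconj (j : ℂ) (by exact_mod_cast hj0)
  obtain ⟨B', hB', a, ha⟩ := hcl.exists_diag hσ hσ2 C hj hC
  exact hdiag B' a ha (hcl.herm B' hB' a a) j hB' hj0

variable [DecidableEq F]

/-- the degree bound when the weights are only known to be stable under multiplication by norms -/
theorem weight_bound_scal {q : ℕ} (hF : Fintype.card F = q ^ 2) (hσq : ∀ x, σ x = x ^ q)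
    (ψ : AddChar F ℂ) (hψ : ψ.IsPrimitive)
    (u : Multiplicative (Matrix (Fin k) (Fin k) F) →* G) (χ : G → ℂ) (hχ : IsCharacter G χ)
    (hscal : ∀ t : F, t ≠ 0 → ∀ T : Matrix (Fin k) (Fin k) F,
      χ (u (Multiplicative.ofAdd ((t * σ t) • T))) = χ (u (Multiplicative.ofAdd T)))
    (m d : ℕ) (hd : χ 1 = d)
    (hmult : ∀ C : Matrix (Fin k) (Fin k) F, C ≠ 0 → ∀ n : ℕ,
      wt u χ (lam ψ C) = n → n ≠ 0 → m ≤ n)
    (hnt : ∃ T, χ (u (Multiplicative.ofAdd T)) ≠ χ 1) :
    m * (q ^ 2 - 1) ≤ (q + 1) * d := by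
  classical
  have hσ0 : ∀ x : F, x ≠ 0 → σ x ≠ 0 := fun x hx => by
    rw [Ne, map_eq_zero]; exact hx
  obtain ⟨B, hB, hB0⟩ : ∃ B : Matrix (Fin k) (Fin k) F, wt u χ (lam ψ B) ≠ 0 ∧ B ≠ 0 := by
    by_contra hcon
    push Not at hcon
    obtain ⟨T, hT⟩ := hnt
    apply hT
    apply const_of_wt_zero
    intro l hl
    obtain ⟨C, rfl⟩ := lam_surjective ψ hψ l
    by_contra h0
    apply hl
    rw [hcon C h0, lam_zero]
  set S : Finset (Matrix (Fin k) (Fin k) F) :=
    Finset.univ.filter (fun C => wt u χ (lam ψ C) ≠ 0 ∧ C ≠ 0) with hS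
  have hmove : ∀ t : F, t ≠ 0 → wt u χ (lam ψ ((t * σ t) • B)) = wt u χ (lam ψ B) := by
    intro t ht
    have hN : t * σ t ≠ 0 := mul_ne_zero ht (hσ0 t ht)
    apply wt_conj u χ
      ⟨fun T => (t * σ t) • T, fun T => (t * σ t)⁻¹ • T,
        fun T => by simp only [smul_smul]; rw [inv_mul_cancel₀ hN, one_smul],
        fun T => by simp only [smul_smul]; rw [mul_inv_cancel₀ hN, one_smul]⟩
      (fun a => hscal t ht a)
    intro T
    rw [lam_apply, lam_apply]
    show ψ (((t * σ t) • B * T).trace) = ψ ((B * ((t * σ t) • T)).trace)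
    rw [Matrix.smul_mul, Matrix.mul_smul]
  set W : Finset F := Finset.univ.filter (fun w => w ≠ 0) with hW
  have hcardW : W.card = q ^ 2 - 1 := by
    rw [hW, Finset.filter_ne', Finset.card_erase_of_mem (Finset.mem_univ _), Finset.card_univ, hF]
  have himg : W.image (fun t => (t * σ t) • B) ⊆ S := by
    intro b hb
    rw [Finset.mem_image] at hb
    obtain ⟨w, hw, rfl⟩ := hb
    have hw0 : w ≠ 0 := by simpa [hW] using hw
    rw [hS, Finset.mem_filter]
    refine ⟨Finset.mem_univ _, ?_, ?_⟩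
    · rw [hmove w hw0]; exact hB
    · exact smul_ne_zero (mul_ne_zero hw0 (hσ0 w hw0)) hB0
  have h1 : q ^ 2 - 1 ≤ (q + 1) * S.card := by
    rw [← hcardW]
    refine (Finset.card_le_mul_card_image W (q + 1) ?_).trans
      (Nat.mul_le_mul_left _ (Finset.card_le_card himg))
    intro b hb
    rw [Finset.mem_image] at hb
    obtain ⟨w0, hw0, rfl⟩ := hb
    have hw00 : w0 ≠ 0 := by simpa [hW] using hw0
    refine le_trans (Finset.card_le_card (t := (Finset.univ.filter
      (fun z : F => z ^ (q + 1) = 1)).image (fun z => z * w0)) ?_)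
      (Finset.card_image_le.trans (card_roots_le q))
    intro x hx
    rw [Finset.mem_filter] at hx
    obtain ⟨hxW, hxf⟩ := hx
    have hx0 : x ≠ 0 := by simpa [hW] using hxW
    have hN : x * σ x = w0 * σ w0 := by
      have : (x * σ x - w0 * σ w0) • B = 0 := by rw [sub_smul, hxf, sub_self]
      rcases smul_eq_zero.mp this with h | h
      · exact sub_eq_zero.mp h
      · exact absurd h hB0
    have hs0 := hσ0 _ hw00
    rw [Finset.mem_image]
    refine ⟨x / w0, ?_, by field_simp⟩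
    rw [Finset.mem_filter]
    refine ⟨Finset.mem_univ _, ?_⟩
    rw [pow_succ', ← hσq, map_div₀]
    field_simp
    exact hN
  have h2 : m * (S.image (lam ψ)).card ≤ d := by
    apply card_mul_le u χ hχ _ m d hd
    intro l hl n hn
    rw [Finset.mem_image] at hl
    obtain ⟨C, hC, rfl⟩ := hl
    rw [hS, Finset.mem_filter] at hC
    apply hmult C hC.2.2 n hn
    intro h0
    apply hC.2.1
    rw [hn, h0]; simp
  rw [Finset.card_image_of_injective _ (lam_injective ψ hψ)] at h2
  calc m * (q ^ 2 - 1) ≤ m * ((q + 1) * S.card) := Nat.mul_le_mul_left _ h1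
    _ = (q + 1) * (m * S.card) := by ring
    _ ≤ (q + 1) * d := Nat.mul_le_mul_left _ h2

end Cfsg.Agent.Lib.Helper44WtBound2
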