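import Mathlib
import Cfsg.Agent.Lib.Helper44Siegel
import Cfsg.Agent.Lib.Helper44SUOdd
import Cfsg.Agent.Lib.Helper44Heis
import Cfsg.Agent.Lib.Helper44WtBound2

set_option autoImplicit false

namespace Cfsg.Agent.Lib.Helper44SUOdd2

open Matrix Cfsg Cfsg.Agent.Lib.Helper4Char Cfsg.Agent.Lib.Helper4Char4
  Cfsg.Agent.Lib.Helper17Herm Cfsg.Agent.Lib.Helper17HermC
  Cfsg.Agent.Lib.Helper44SUEven Cfsg.Agent.Lib.Helper44Lam
  Cfsg.Agent.Lib.Helper44Wt Cfsg.Agent.Lib.Helper44HermOrb Cfsg.Agent.Lib.Helper44WtBound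
  Cfsg.Agent.Lib.Helper44SUKer Cfsg.Agent.Lib.Helper44Siegel Cfsg.Agent.Lib.Helper44SUOdd
  Cfsg.Agent.Lib.Helper44Heis Cfsg.Agent.Lib.Helper44WtBound2

section Abstract

variable {F : Type*} [Field F] (σ : F →+* F) {k : ℕ}

/-- a column vector supported at one place -/
def colv (a : Fin k) (c : F) : Matrix (Fin k) Unit F := Matrix.single a () c

theorem colv_add (a : Fin k) (c c' : F) : colv a c + colv a c' = colv a (c + c') := by
  unfold colv
  rw [Matrix.single_add]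

theorem colv_mul_adj (a : Fin k) (c c' : F) :
    colv a c * adj σ (colv a c') = Matrix.single a a (c * σ c') := by
  have : adj σ (colv a c') = Matrix.single () a (σ c') := by
    ext i j
    simp only [adj_apply, colv, Matrix.single_apply]
    by_cases h : a = j <;> simp [h]
  rw [this]
  unfold colv
  rw [Matrix.single_mul_single_same]

theorem single_sub' (a : Fin k) (x y : F) :
    Matrix.single a a x - Matrix.single a a y = Matrix.single a a (x - y) := by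
  rw [sub_eq_add_neg, sub_eq_add_neg, Matrix.single_add, Matrix.single_neg]

theorem adj_single (a : Fin k) (x : F) :
    adj σ (Matrix.single a a x) = Matrix.single a a (σ x) := by
  ext i j
  simp only [adj_apply, Matrix.single_apply]
  by_cases h : a = j ∧ a = i
  · rw [if_pos h, if_pos ⟨h.2, h.1⟩]
  · rw [if_neg h, if_neg (fun h' => h ⟨h'.2, h'.1⟩), map_zero]

/-- the cocycle -/
def kap (θ ε : F) (a : Fin k) : F →+ F →+ Matrix (Fin k) (Fin k) F :=
  AddMonoidHom.mk' (fun c => AddMonoidHom.mk' (fun c' => Matrix.single a a (θ * c' * σ c / ε))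
    (by
      intro x y
      rw [← Matrix.single_add]
      congr 1
      ring))
    (by
      intro x y
      ext1 c'
      show Matrix.single a a (θ * c' * σ (x + y) / ε) =
        Matrix.single a a (θ * c' * σ x / ε) + Matrix.single a a (θ * c' * σ y / ε)
      rw [← Matrix.single_add, map_add]
      congr 1
      ring)

theorem kap_apply (θ ε : F) (a : Fin k) (c c' : F) :
    kap σ θ ε a c c' = Matrix.single a a (θ * c' * σ c / ε) := rfl

variable [Fintype F]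

theorem lam_single (ψ : AddChar F ℂ) (C : Matrix (Fin k) (Fin k) F) (a : Fin k) (x : F) :
    lam ψ C (Matrix.single a a x) = ψ (C a a * x) := by
  rw [lam_apply, Matrix.trace_mul_comm, Matrix.trace_single_mul, smul_eq_mul, mul_comm]

/-- an invariant primitive character is nontrivial on a complement of the trace-zero elements -/
theorem psi_theta (hσ2 : ∀ a : F, σ (σ a) = a) (ψ : AddChar F ℂ) (hψ : ψ.IsPrimitive)
    (hinv : ∀ x, ψ (σ x) = ψ x) (θ : F) (hθ : θ + σ θ = 1) :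
    ∃ r : F, σ r = r ∧ ψ (θ * r) ≠ 1 := by
  by_contra hcon
  push Not at hcon
  apply hψ (a := 1) one_ne_zero
  ext x
  rw [AddChar.mulShift_apply, one_mul, AddChar.one_apply]
  set w := x - θ * (x + σ x) with hw
  have hw0 : σ w = -w := by
    rw [hw, map_sub, map_mul, map_add, hσ2]
    linear_combination (-(x + σ x)) * hθ
  have h1 : w = σ (-(θ * w)) - (-(θ * w)) := by
    rw [map_neg, map_mul, hw0]
    linear_combination (-w) * hθ
  have h2 : ψ w = 1 := by
    rw [h1, sub_eq_add_neg, AddChar.map_add_eq_mul, hinv, ← AddChar.map_add_eq_mul,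
      add_neg_cancel, AddChar.map_zero_eq_one]
  have h3 : x = θ * (x + σ x) + w := by rw [hw]; ring
  rw [h3, AddChar.map_add_eq_mul, h2, mul_one]
  apply hcon
  rw [map_add, hσ2, add_comm]

/-- the commutator pairing is nondegenerate on a weight with nonzero diagonal entry -/
theorem kap_nondeg (hσ2 : ∀ a : F, σ (σ a) = a) (ψ : AddChar F ℂ) (hψ : ψ.IsPrimitive)
    (hinv : ∀ x, ψ (σ x) = ψ x) (θ ε : F) (hθ : θ + σ θ = 1) (hε : σ ε = -ε) (hε0 : ε ≠ 0)
    (C : Matrix (Fin k) (Fin k) F) (a : Fin k) (hC : C a a ≠ 0) (hCf : σ (C a a) = C a a)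
    (c : F) (hc : c ≠ 0) :
    ∃ c' : F, lam ψ C (kap σ θ ε a c' c - kap σ θ ε a c c') ≠ 1 := by
  obtain ⟨r, hr, hne⟩ := psi_theta σ hσ2 ψ hψ hinv θ hθ
  have hsc : σ c ≠ 0 := by rw [Ne, map_eq_zero]; exact hc
  set y0 := ε * r / C a a with hy0
  have hy : σ y0 = -y0 := by
    rw [hy0, map_div₀, map_mul, hε, hr, hCf]; ring
  refine ⟨-(θ * y0) / σ c, ?_⟩
  rw [kap_apply, kap_apply, single_sub', lam_single]
  have : C a a * (θ * c * σ (-(θ * y0) / σ c) / ε - θ * (-(θ * y0) / σ c) * σ c / ε) = θ * r := by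
    rw [map_div₀, map_neg, map_mul, hσ2, hy]
    have h1 : θ * c * (-(σ θ * -y0) / c) / ε - θ * (-(θ * y0) / σ c) * σ c / ε =
        θ * y0 * (θ + σ θ) / ε := by
      field_simp
      ring
    rw [h1, hθ, hy0]
    field_simp
  rw [this]
  exact hne

end Abstract

variable {F : Type*} [Field F] [Fintype F] {q : ℕ} (hF : Fintype.card F = q ^ 2) {k n : ℕ}

variable (Ψ : SpecialLinearGroup ((Fin k ⊕ Fin k) ⊕ Unit) F →* SpecialLinearGroup (Fin n) F)
  (hΨ : ∀ Y : SpecialLinearGroup ((Fin k ⊕ Fin k) ⊕ Unit) F,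
    (Y : Matrix ((Fin k ⊕ Fin k) ⊕ Unit) ((Fin k ⊕ Fin k) ⊕ Unit) F)ᵀ * Jo k *
      (Y : Matrix ((Fin k ⊕ Fin k) ⊕ Unit) ((Fin k ⊕ Fin k) ⊕ Unit) F).map (sig hF) = Jo k →
      Ψ Y ∈ Cfsg.SU n F q)
  (ε : F) (hε : sig hF ε = -ε)

include hΨ in
theorem hmemO (X : SpecialLinearGroup (Fin k ⊕ Fin k) F)
    (hX : (X : Matrix (Fin k ⊕ Fin k) (Fin k ⊕ Fin k) F)ᵀ * Jm k *
      (X : Matrix (Fin k ⊕ Fin k) (Fin k ⊕ Fin k) F).map (sig hF) = Jm k) :
    (Ψ.comp iota) X ∈ Cfsg.SU n F q :=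
  hΨ _ (iota_form _ X hX)

/-- the centre of the Siegel radical in odd dimension -/
noncomputable def uO : Multiplicative (Matrix (Fin k) (Fin k) F) →* ↥(Cfsg.SU n F q) :=
  uHom hF (Ψ.comp iota) (hmemO hF Ψ hΨ) ε hε

theorem uO_coe (T : Matrix (Fin k) (Fin k) F) :
    ((uO hF Ψ hΨ ε hε (Multiplicative.ofAdd T) : ↥(Cfsg.SU n F q)) :
      SpecialLinearGroup (Fin n) F) = Ψ (y (sig hF) 0 (skw hF ε T)) := by
  unfold uO
  rw [uHom_coe, MonoidHom.comp_apply, iota_xS (sig hF)]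

variable (θ : F) (hθ : θ + sig hF θ = 1)

/-- a section of the Heisenberg group -/
noncomputable def hsec (a : Fin k) (c : F) : ↥(Cfsg.SU n F q) :=
  ⟨Ψ (y (sig hF) (colv a c) (Matrix.single a a (-(θ * c * sig hF c)))), hΨ _ (by
    rw [y_coe]
    apply yM_form _ (sig_sig hF)
    rw [adj_single, colv_mul_adj, ← Matrix.single_add, ← Matrix.single_add]
    have : -(θ * c * sig hF c) + sig hF (-(θ * c * sig hF c)) + c * sig hF c = 0 := by
      rw [map_neg, map_mul, map_mul, sig_sig hF]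
      linear_combination (-(c * sig hF c)) * hθ
    rw [this, Matrix.single_zero])⟩

theorem hsec_coe (a : Fin k) (c : F) :
    ((hsec hF Ψ hΨ θ hθ a c : ↥(Cfsg.SU n F q)) : SpecialLinearGroup (Fin n) F) =
      Ψ (y (sig hF) (colv a c) (Matrix.single a a (-(θ * c * sig hF c)))) := rfl

theorem skw_single (a : Fin k) (x : F) :
    skw hF ε (Matrix.single a a x) = Matrix.single a a (ε * (x + sig hF x)) := by
  unfold skw
  rw [adj_single, ← Matrix.single_add, Matrix.smul_single, smul_eq_mul]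

theorem adj_zero' : adj (sig hF) (0 : Matrix (Fin k) Unit F) = 0 := by
  ext i j
  simp [adj_apply]

include hε in
theorem hsec_R1 (hε0 : ε ≠ 0) (a : Fin k) (c c' : F) :
    hsec hF Ψ hΨ θ hθ a c * hsec hF Ψ hΨ θ hθ a c' =
      hsec hF Ψ hΨ θ hθ a (c + c') *
        uO hF Ψ hΨ ε hε (Multiplicative.ofAdd (kap (sig hF) θ ε a c c')) := by
  apply Subtype.ext
  rw [Subgroup.coe_mul, Subgroup.coe_mul, hsec_coe, hsec_coe, hsec_coe, uO_coe, ← map_mul,
    ← map_mul, y_mul, y_mul, colv_add, add_zero, adj_zero', Matrix.mul_zero, sub_zero,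
    colv_mul_adj, kap_apply, skw_single, ← Matrix.single_add, single_sub',
    ← Matrix.single_add]
  congr 3
  rw [map_div₀, map_mul, map_mul, sig_sig hF, hε, map_add]
  have h1 : ε * (θ * c' * sig hF c / ε + sig hF θ * sig hF c' * c / -ε) =
      θ * c' * sig hF c - sig hF θ * sig hF c' * c := by
    field_simp
    ring
  rw [h1]
  linear_combination (c * sig hF c') * hθ

theorem hsec_R2 (a : Fin k) (c : F) (b : Multiplicative (Matrix (Fin k) (Fin k) F)) :
    hsec hF Ψ hΨ θ hθ a c * uO hF Ψ hΨ ε hε b = uO hF Ψ hΨ ε hε b * hsec hF Ψ hΨ θ hθ a c := by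
  obtain ⟨T, rfl⟩ := Multiplicative.ofAdd.surjective b
  apply Subtype.ext
  rw [Subgroup.coe_mul, Subgroup.coe_mul, hsec_coe, uO_coe, ← map_mul, ← map_mul, y_mul, y_mul,
    add_zero, zero_add, adj_zero', Matrix.mul_zero, Matrix.zero_mul, add_comm]

include hθ in
/-- weights with a nonzero diagonal entry have multiplicity at least `q` -/
theorem mult_diag (hε0 : ε ≠ 0) (ψ : AddChar F ℂ) (hψ : ψ.IsPrimitive)
    (hinv : ∀ x, ψ (sig hF x) = ψ x)
    (χ : ↥(Cfsg.SU n F q) → ℂ) (hχ : IsCharacter ↥(Cfsg.SU n F q) χ)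
    (C : Matrix (Fin k) (Fin k) F) (a : Fin k) (hC : C a a ≠ 0)
    (hCf : sig hF (C a a) = C a a) (j : ℕ)
    (hj : wt (uO hF Ψ hΨ ε hε) χ (lam ψ C) = j) (hj0 : j ≠ 0) : q ≤ j := by
  classical
  have h := heis_mult_lift (kap (sig hF) θ ε a) (hsec hF Ψ hΨ θ hθ a) (uO hF Ψ hΨ ε hε)
    (hsec_R1 hF Ψ hΨ ε hε θ hθ hε0 a) (hsec_R2 hF Ψ hΨ ε hε θ hθ a) (lam ψ C)
    (kap_nondeg (sig hF) (sig_sig hF) ψ hψ hinv θ ε hθ hε hε0 C a hC hCf) χ hχ j hj hj0
  rw [hF] at h
  exact (Nat.pow_le_pow_iff_left (by norm_num)).mp h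

/-- torus elements -/
noncomputable def torS (t : F) (ht : t ≠ 0) : ↥(Cfsg.SU n F q) :=
  ⟨Ψ (tor (sig hF) t ht), hΨ _ (tor_form _ (sig_sig hF) t ht)⟩

theorem torS_coe (t : F) (ht : t ≠ 0) :
    ((torS hF Ψ hΨ t ht : ↥(Cfsg.SU n F q)) : SpecialLinearGroup (Fin n) F) =
      Ψ (tor (sig hF) t ht) := rfl

theorem skw_smul (t : F) (T : Matrix (Fin k) (Fin k) F) :
    skw hF ε ((t * sig hF t) • T) = (t * sig hF t) • skw hF ε T := by
  unfold skw
  rw [adj_smul, map_mul, sig_sig hF, mul_comm (sig hF t) t, ← smul_add, smul_comm]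

theorem torS_mul (t : F) (ht : t ≠ 0) (T : Matrix (Fin k) (Fin k) F) :
    torS hF Ψ hΨ t ht * uO hF Ψ hΨ ε hε (Multiplicative.ofAdd T) =
      uO hF Ψ hΨ ε hε (Multiplicative.ofAdd ((t * sig hF t) • T)) * torS hF Ψ hΨ t ht := by
  apply Subtype.ext
  rw [Subgroup.coe_mul, Subgroup.coe_mul, torS_coe, uO_coe, uO_coe, ← map_mul, ← map_mul,
    ← iota_xS, ← iota_xS, tor_xS, skw_smul]

theorem char_scal (χ : ↥(Cfsg.SU n F q) → ℂ) (hχ : IsClassFunction ↥(Cfsg.SU n F q) χ)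
    (t : F) (ht : t ≠ 0) (T : Matrix (Fin k) (Fin k) F) :
    χ (uO hF Ψ hΨ ε hε (Multiplicative.ofAdd ((t * sig hF t) • T))) =
      χ (uO hF Ψ hΨ ε hε (Multiplicative.ofAdd T)) := by
  rw [← hχ (uO hF Ψ hΨ ε hε (Multiplicative.ofAdd T)) (torS hF Ψ hΨ t ht), torS_mul,
    mul_inv_cancel_right]

include hF in
theorem exists_norm_ne_one (hq : 3 ≤ q) : ∃ t : F, t ≠ 0 ∧ t * sig hF t ≠ 1 := by
  classical
  by_contra hcon
  push Not at hcon
  have h1 : Finset.univ.filter (fun w : F => w ≠ 0) ⊆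
      Finset.univ.filter (fun z : F => z ^ (q + 1) = 1) := by
    intro t ht
    rw [Finset.mem_filter] at ht ⊢
    refine ⟨Finset.mem_univ _, ?_⟩
    rw [pow_succ', ← sig_apply hF]
    exact hcon t ht.2
  have h2 := (Finset.card_le_card h1).trans (card_roots_le q)
  rw [Finset.filter_ne', Finset.card_erase_of_mem (Finset.mem_univ _), Finset.card_univ, hF] at h2
  have h3 : q ^ 2 ≤ q + 2 := by omega
  nlinarith

/-- the centre of the Siegel radical is not central -/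
theorem not_centralO (hinj : Function.Injective Ψ) (hε0 : ε ≠ 0) (hk : 1 ≤ k) (hq : 3 ≤ q) :
    ∃ T : Matrix (Fin k) (Fin k) F,
      uO hF Ψ hΨ ε hε (Multiplicative.ofAdd T) ∉ Subgroup.center ↥(Cfsg.SU n F q) := by
  classical
  obtain ⟨β, hβ⟩ := trace_surj (sig hF) (sig_ne_id hF) (sig_sig hF) 1 (map_one _)
  obtain ⟨t, ht, hN⟩ := exists_norm_ne_one hF hq
  set i0 : Fin k := ⟨0, by omega⟩ with hi0
  refine ⟨Matrix.single i0 i0 β, fun hc => ?_⟩
  have h1 := torS_mul hF Ψ hΨ ε hε t ht (Matrix.single i0 i0 β)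
  rw [Subgroup.mem_center_iff.mp hc (torS hF Ψ hΨ t ht)] at h1
  have h2 := mul_right_cancel h1
  have h3 := congrArg Subtype.val h2
  rw [uO_coe, uO_coe, ← iota_xS, ← iota_xS] at h3
  have h4 := xS_injective (iota_injective (hinj h3))
  rw [skw_smul, skw_single, hβ, mul_one] at h4
  have h5 := congrFun (congrFun h4 i0) i0
  rw [Matrix.smul_apply, Matrix.single_apply_same, smul_eq_mul] at h5
  apply hN
  have : (t * sig hF t - 1) * ε = 0 := by linear_combination -h5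
  rcases mul_eq_zero.mp this with h | h
  · exact sub_eq_zero.mp h
  · exact absurd h hε0

variable [DecidableEq F]

include hF hΨ hε in
/-- the degree bound in odd dimension -/
theorem odd_bound (hinj : Function.Injective Ψ) (hε0 : ε ≠ 0) (hk : 1 ≤ k) (hn : 3 ≤ n)
    (h32 : ¬ (n = 3 ∧ q = 2)) (hq : k = 1 → 3 ≤ q)
    (χ : ↥(Cfsg.SU n F q) → ℂ) (hχ : IsIrrCharacter ↥(Cfsg.SU n F q) χ) (h1 : χ 1 ≠ 1)
    (d : ℕ) (hd : χ 1 = d) :
    q * (q ^ (2 * k) - 1) ≤ (q + 1) * d := by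
  obtain ⟨ψ, hψ, hinv⟩ := exists_psi (sig hF) (sig_ne_id hF) (sig_sig hF)
  obtain ⟨θ, hθ⟩ := trace_surj (sig hF) (sig_ne_id hF) (sig_sig hF) 1 (map_one _)
  have hmult : ∀ C : Matrix (Fin k) (Fin k) F, C ≠ 0 → ∀ j : ℕ,
      wt (uO hF Ψ hΨ ε hε) χ (lam ψ C) = j → j ≠ 0 → q ≤ j := by
    intro C hC j hj hj0
    exact mult_of_diag (sig hF) (sig_ne_id hF) (sig_sig hF) ψ hψ hinv (uO hF Ψ hΨ ε hε) χ
      (uHom_ker hF _ _ ε hε) (char_conj hF _ _ ε hε χ (IsIrrCharacter.isClassFunction hχ)) q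
      (fun C a hCa hCf j hj hj0 => mult_diag hF Ψ hΨ ε hε θ hθ hε0 ψ hψ hinv χ
        (IsIrrCharacter.isCharacter hχ) C a hCa hCf j hj hj0) C hC j hj hj0
  rcases Nat.lt_or_ge k 2 with hk2 | hk2
  · have hk1 : k = 1 := by omega
    have h := weight_bound_scal (sig hF) hF (sig_apply hF) ψ hψ (uO hF Ψ hΨ ε hε) χ
      (IsIrrCharacter.isCharacter hχ)
      (char_scal hF Ψ hΨ ε hε χ (IsIrrCharacter.isClassFunction hχ)) q d hd hmult (by
        obtain ⟨T, hT⟩ := not_centralO hF Ψ hΨ ε hε hinj hε0 hk (hq hk1)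
        exact ⟨T, fun h => hT (mem_center_of_char_eq hF hn h32 χ hχ h1 _ h)⟩)
    rw [hk1]
    exact h
  · exact siegel_bound hF (Ψ.comp iota) (hmemO hF Ψ hΨ) ε hε
      (hinj.comp iota_injective) hε0 hk2 hn h32 ψ hψ hinv χ hχ h1 q d hd
      (fun C hC _ j hj hj0 => hmult C hC j hj hj0)

end Cfsg.Agent.Lib.Helper44SUOdd2
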