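import Mathlib
import Cfsg.Agent.Lib.Helper44Four
import Cfsg.Agent.Lib.Helper44Ab
import Cfsg.Agent.Lib.Helper8Sz4
import Cfsg.Agent.Lib.Helper8Sz7
import Cfsg.Agent.Lib.Helper82Irr
import Cfsg.Agent.Lib.Helper8Sz5
import Cfsg.Agent.S0325

set_option autoImplicit false

namespace Cfsg.Agent.Lib.Helper44SzDeg

open Cfsg Cfsg.Agent.Lib.Helper4Char Cfsg.Agent.Lib.Helper4Char4 Cfsg.Agent.Lib.Helper44Four
  Cfsg.Agent.Lib.Helper8Sz Cfsg.Agent.Lib.Helper8Sz2 Cfsg.Agent.Lib.Helper8Sz3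
  Cfsg.Agent.Lib.Helper8Sz4 Cfsg.Agent.Lib.Helper8Sz7 Cfsg.Agent.Lib.Helper44Ab

variable {F : Type*} [Field F] [Fintype F] {m : ℕ} (hF : Fintype.card F = 2 ^ (2 * m + 1))

/-- the additive map `s ↦ s + σ(s)` -/
def phi : F →+ F where
  toFun s := s + sg m s
  map_zero' := by simp [sg_zero]
  map_add' x y := by rw [sg_add hF]; ring

include hF

theorem phi_apply (s : F) : phi hF s = s + sg m s := rfl

theorem mem_ker_phi (s : F) : s ∈ (phi hF).ker ↔ s = 0 ∨ s = 1 := by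
  rw [AddMonoidHom.mem_ker, phi_apply]
  constructor
  · intro h
    by_contra hc
    push Not at hc
    apply sg_ne_self hF hc.1 hc.2
    have h2 := Cfsg.Agent.Lib.Helper8Sz.add_self hF s
    have : sg m s = s + (s + sg m s) := by rw [← add_assoc, h2, zero_add]
    rw [this, h, add_zero]
  · rintro (rfl | rfl)
    · simp [sg_zero]
    · rw [sg_one]; exact Cfsg.Agent.Lib.Helper8Sz.add_self hF 1

theorem card_ker_phi : Nat.card (phi hF).ker = 2 := by
  rw [Nat.card_eq_two_iff]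
  refine ⟨⟨0, (mem_ker_phi hF 0).mpr (Or.inl rfl)⟩, ⟨1, (mem_ker_phi hF 1).mpr (Or.inr rfl)⟩, ?_, ?_⟩
  · intro h
    have := congrArg Subtype.val h
    exact zero_ne_one this
  · ext ⟨x, hx⟩
    simp only [Set.mem_insert_iff, Set.mem_singleton_iff, Set.mem_univ, iff_true]
    rcases (mem_ker_phi hF x).mp hx with h | h
    · left; exact Subtype.ext h
    · right; exact Subtype.ext h

theorem index_range_phi : (phi hF).range.index = 2 := by
  have h1 := AddSubgroup.card_mul_index (phi hF).ker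
  have h2 := AddSubgroup.card_mul_index (phi hF).range
  rw [AddSubgroup.index_ker, card_ker_phi] at h1
  have hpos : 0 < Nat.card (phi hF).range := Nat.card_pos
  rw [← h1, mul_comm 2] at h2
  exact Nat.eq_of_mul_eq_mul_left hpos h2

theorem psi_sq (ψ : AddChar F ℂ) (b : F) : ψ b * ψ b = 1 := by
  rw [← AddChar.map_add_eq_mul, Cfsg.Agent.Lib.Helper8Sz.add_self hF, AddChar.map_zero_eq_one]

theorem psi_eq_neg_one (ψ : AddChar F ℂ) (b : F) (h : ψ b ≠ 1) : ψ b = -1 := by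
  have h1 := psi_sq hF ψ b
  have h2 : (ψ b - 1) * (ψ b + 1) = 0 := by linear_combination h1
  rcases mul_eq_zero.mp h2 with h3 | h3
  · exact absurd (sub_eq_zero.mp h3) h
  · linear_combination h3

theorem psi_off_range (ψ : AddChar F ℂ) (hψ : ψ.IsPrimitive) (x : F) (hx : x ≠ 0)
    (h : ∀ s : F, ψ (x * (s + sg m s)) = 1) (y : F) (hy : y ∉ (phi hF).range) :
    ψ (x * y) = -1 := by
  obtain ⟨y0, hy0⟩ := (AddChar.ne_one_iff).mp (hψ hx)
  rw [AddChar.mulShift_apply] at hy0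
  have hy0' : y0 ∉ (phi hF).range := by
    rintro ⟨s, rfl⟩
    exact hy0 (h s)
  have h1 : y + y0 ∈ (phi hF).range := by
    rw [AddSubgroup.add_mem_iff_of_index_two (index_range_phi hF)]
    exact ⟨fun h => absurd h hy, fun h => absurd h hy0'⟩
  obtain ⟨s, hs⟩ := h1
  have h2 := h s
  rw [← phi_apply hF, hs, mul_add, AddChar.map_add_eq_mul, psi_eq_neg_one hF ψ _ hy0] at h2
  linear_combination -h2

/-- the radical of the commutator form has at most one non-zero element -/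
theorem radical (ψ : AddChar F ℂ) (hψ : ψ.IsPrimitive) (a a' : F) (ha : a ≠ 0) (ha' : a' ≠ 0)
    (h : ∀ c : F, ψ (sg m c * a + sg m a * c) = 1)
    (h' : ∀ c : F, ψ (sg m c * a' + sg m a' * c) = 1) : a = a' := by
  have key : ∀ b : F, (∀ c : F, ψ (sg m c * b + sg m b * c) = 1) →
      ∀ s : F, ψ ((b * sg m b) * (s + sg m s)) = 1 := by
    intro b hb s
    have := hb (b * s)
    rw [sg_mul] at this
    rw [← this]
    congr 1
    ring
  have hx : a * sg m a ≠ 0 := mul_ne_zero ha (sg_ne_zero ha)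
  have hx' : a' * sg m a' ≠ 0 := mul_ne_zero ha' (sg_ne_zero ha')
  have hall : ∀ y : F, ψ ((a * sg m a + a' * sg m a') * y) = 1 := by
    intro y
    rw [add_mul, AddChar.map_add_eq_mul]
    by_cases hy : y ∈ (phi hF).range
    · obtain ⟨s, rfl⟩ := hy
      rw [phi_apply, key a h s, key a' h' s, one_mul]
    · rw [psi_off_range hF ψ hψ _ hx (key a h) y hy, psi_off_range hF ψ hψ _ hx' (key a' h') y hy]
      norm_num
  have hzero : a * sg m a + a' * sg m a' = 0 := by
    by_contra hne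
    apply hψ hne
    ext y
    rw [AddChar.mulShift_apply, hall y]
    simp
  apply norm_inj hF ha ha'
  have h2 := Cfsg.Agent.Lib.Helper8Sz.add_self hF (a' * sg m a')
  calc a * sg m a = a * sg m a + (a' * sg m a' + a' * sg m a') := by rw [h2, add_zero]
    _ = a' * sg m a' := by rw [← add_assoc, hzero, zero_add]

theorem card_radical [DecidableEq F] (ψ : AddChar F ℂ) (hψ : ψ.IsPrimitive) :
    (Finset.univ.filter (fun a : F => ∀ c : F, ψ (sg m c * a + sg m a * c) = 1)).card ≤ 2 := by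
  classical
  set A := Finset.univ.filter (fun a : F => ∀ c : F, ψ (sg m c * a + sg m a * c) = 1) with hA
  by_cases hex : ∃ a0 ∈ A, a0 ≠ 0
  · obtain ⟨a0, ha0, hne⟩ := hex
    have hsub : A ⊆ {0, a0} := by
      intro a ha
      by_cases h0 : a = 0
      · simp [h0]
      · have := radical hF ψ hψ a a0 h0 hne (Finset.mem_filter.mp ha).2 (Finset.mem_filter.mp ha0).2
        simp [this]
    exact le_trans (Finset.card_le_card hsub) Finset.card_le_two
  · push Not at hex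
    have hsub : A ⊆ {0} := by
      intro a ha
      simp [hex a ha]
    exact le_trans (Finset.card_le_card hsub) (by simp)

theorem q_bijective (hm : 1 ≤ m) :
    Function.Bijective (fun p : F × F => q hF hm p.1 p.2) := by
  constructor
  · rintro ⟨a, b⟩ ⟨a', b'⟩ h
    obtain ⟨h1, h2⟩ := q_inj hF hm h
    exact Prod.ext h1 h2
  · intro x
    obtain ⟨a, b, rfl⟩ := q_surj hF hm x
    exact ⟨(a, b), rfl⟩

theorem sum_Q (hm : 1 ≤ m) [Fintype (Q hF hm)] {M : Type*} [AddCommMonoid M]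
    (f : Q hF hm → M) : ∑ x, f x = ∑ a : F, ∑ b : F, f (q hF hm a b) := by
  rw [← Fintype.sum_prod_type', ← Equiv.sum_comp (Equiv.ofBijective _ (q_bijective hF hm))]
  rfl

theorem q_central (hm : 1 ≤ m) (b : F) (g : Q hF hm) : g * q hF hm 0 b = q hF hm 0 b * g := by
  obtain ⟨a', b', rfl⟩ := q_surj hF hm g
  rw [q_mul, q_mul, sg_zero]
  congr 1 <;> ring

theorem q0_mul (hm : 1 ≤ m) (b b' : F) : q hF hm 0 b * q hF hm 0 b' = q hF hm 0 (b + b') := by
  rw [q_mul, sg_zero]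
  congr 1 <;> ring

open scoped commutatorElement in
/-- irreducible characters of the Sylow 2-subgroup lying over a non-trivial central character have
degree at least `2 ^ m` -/
theorem irr_Q_bound (hm : 1 ≤ m) (ψ : AddChar F ℂ) (hψ : ψ.IsPrimitive) (ξ : Q hF hm → ℂ)
    (hξ : IsIrrCharacter (Q hF hm) ξ)
    (hS : ∑ b : F, ξ (q hF hm 0 b) * (starRingEnd ℂ) (ψ b) ≠ 0) :
    (∀ b, ξ (q hF hm 0 b) = ξ 1 * ψ b) ∧ ∃ d : ℕ, ξ 1 = d ∧ 2 ^ m ≤ d := by
  classical
  have : Fintype (Q hF hm) := Fintype.ofFinite _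
  have h1ne := Cfsg.Agent.Lib.Helper83Char.irr_one_ne_zero hξ
  obtain ⟨d, hdpos, hd⟩ := Cfsg.Agent.Lib.Helper83Char.irr_one hξ
  have hcent : ∀ (b : F) (x : Q hF hm), ξ (q hF hm 0 b * x) = ξ (q hF hm 0 b) * ξ x / ξ 1 :=
    fun b x => irr_central_mul hξ _ (q_central hF hm b) x
  have hpsi : ∀ b : F, ψ b * (starRingEnd ℂ) (ψ b) = 1 := by
    intro b
    rw [← AddChar.map_neg_eq_conj, ← AddChar.map_add_eq_mul, add_neg_cancel,
      AddChar.map_zero_eq_one]
  -- the central character is ψ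
  have hω : ∀ b0, ξ (q hF hm 0 b0) = ξ 1 * ψ b0 := by
    intro b0
    set S := ∑ b : F, ξ (q hF hm 0 b) * (starRingEnd ℂ) (ψ b) with hSdef
    have e1 : S = ∑ b : F, ξ (q hF hm 0 (b0 + b)) * (starRingEnd ℂ) (ψ (b0 + b)) := by
      rw [hSdef, ← Equiv.sum_comp (Equiv.addLeft b0)]
      rfl
    have e2 : ∑ b : F, ξ (q hF hm 0 (b0 + b)) * (starRingEnd ℂ) (ψ (b0 + b)) =
        (ξ (q hF hm 0 b0) / ξ 1 * (starRingEnd ℂ) (ψ b0)) * S := by
      rw [hSdef, Finset.mul_sum]
      apply Finset.sum_congr rfl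
      intro b _
      rw [← q0_mul hF hm, hcent, AddChar.map_add_eq_mul, map_mul]
      ring
    rw [e2] at e1
    have e3 : ξ (q hF hm 0 b0) / ξ 1 * (starRingEnd ℂ) (ψ b0) = 1 := by
      have : (ξ (q hF hm 0 b0) / ξ 1 * (starRingEnd ℂ) (ψ b0) - 1) * S = 0 := by
        linear_combination -e1
      have := (mul_eq_zero.mp this).resolve_right hS
      linear_combination this
    have e4 := hpsi b0
    field_simp at e3
    calc ξ (q hF hm 0 b0) = ξ (q hF hm 0 b0) * (ψ b0 * (starRingEnd ℂ) (ψ b0)) := by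
          rw [e4, mul_one]
      _ = (ξ (q hF hm 0 b0) * (starRingEnd ℂ) (ψ b0)) * ψ b0 := by ring
      _ = ξ 1 * ψ b0 := by rw [e3]
  refine ⟨hω, d, hd, ?_⟩
  -- vanishing off the radical
  have hcl := IsIrrCharacter.isClassFunction hξ
  have hvan : ∀ a b c : F, ψ (sg m c * a + sg m a * c) ≠ 1 → ξ (q hF hm a b) = 0 := by
    intro a b c hne
    have e1 : q hF hm c 0 * q hF hm a b * (q hF hm c 0)⁻¹ =
        q hF hm 0 (sg m c * a + sg m a * c) * q hF hm a b := by
      rw [← q_comm hF hm c 0 a b, commutatorElement_def, inv_mul_cancel_right]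
    have e2 := hcl (q hF hm a b) (q hF hm c 0)
    rw [e1, hcent, hω] at e2
    have e3 : (ψ (sg m c * a + sg m a * c) - 1) * ξ (q hF hm a b) = 0 := by
      field_simp at e2
      linear_combination e2
    exact (mul_eq_zero.mp e3).resolve_left (sub_ne_zero.mpr hne)
  -- the norm
  have hnorm : ∑ x : Q hF hm, ‖ξ x‖ ^ 2 = (Nat.card (Q hF hm) : ℝ) := by
    have h0 := classInner_irr_self hξ
    unfold classInner at h0
    have hP : (Nat.card (Q hF hm) : ℂ) ≠ 0 := by exact_mod_cast Nat.card_pos.ne'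
    field_simp at h0
    apply Complex.ofReal_injective
    push_cast
    rw [← h0]
    apply Finset.sum_congr rfl
    intro x _
    rw [Complex.mul_conj, Complex.normSq_eq_norm_sq]
    push_cast
    rfl
  rw [sum_Q hF hm, card_Q] at hnorm
  set A := Finset.univ.filter (fun a : F => ∀ c : F, ψ (sg m c * a + sg m a * c) = 1) with hA
  have hle : ∀ a : F, ∑ b : F, ‖ξ (q hF hm a b)‖ ^ 2 ≤
      if a ∈ A then (Fintype.card F : ℝ) * (d : ℝ) ^ 2 else 0 := by
    intro a
    split_ifs with ha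
    · have : ∀ b ∈ (Finset.univ : Finset F), ‖ξ (q hF hm a b)‖ ^ 2 ≤ (d : ℝ) ^ 2 := by
        intro b _
        have h3 := Cfsg.Agent.Lib.Helper82Irr.irr_norm_le ⟨ξ, hξ⟩ (q hF hm a b)
        simp only [hd, Complex.norm_natCast] at h3
        exact pow_le_pow_left₀ (norm_nonneg _) h3 2
      have h4 := Finset.sum_le_sum this
      rw [Finset.sum_const, Finset.card_univ, nsmul_eq_mul] at h4
      exact h4
    · have hex : ∃ c : F, ψ (sg m c * a + sg m a * c) ≠ 1 := by
        by_contra hc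
        push Not at hc
        exact ha (Finset.mem_filter.mpr ⟨Finset.mem_univ _, hc⟩)
      obtain ⟨c, hc⟩ := hex
      apply le_of_eq
      apply Finset.sum_eq_zero
      intro b _
      rw [hvan a b c hc]
      simp
  have h5 := Finset.sum_le_sum (fun a (_ : a ∈ (Finset.univ : Finset F)) => hle a)
  rw [hnorm, ← Finset.sum_filter, Finset.sum_const, nsmul_eq_mul, Finset.filter_mem_eq_inter,
    Finset.univ_inter] at h5
  have h6 : (A.card : ℝ) ≤ 2 := by exact_mod_cast card_radical hF ψ hψ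
  have h7 : (((2 ^ (2 * m + 1)) ^ 2 : ℕ) : ℝ) ≤ 2 * ((Fintype.card F : ℝ) * (d : ℝ) ^ 2) :=
    le_trans h5 (mul_le_mul_of_nonneg_right h6 (by positivity))
  rw [hF] at h7
  have h8 : (2 ^ (2 * m + 1)) ^ 2 ≤ 2 * (2 ^ (2 * m + 1) * d ^ 2) := by exact_mod_cast h7
  have h9 : (2 ^ m) ^ 2 ≤ d ^ 2 := by
    have e : (2 ^ (2 * m + 1)) ^ 2 = 2 * (2 ^ (2 * m + 1) * (2 ^ m) ^ 2) := by
      rw [← pow_mul, ← pow_mul, ← pow_add, ← pow_succ']
      congr 1
      ring
    rw [e] at h8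
    have hpos : 0 < 2 * 2 ^ (2 * m + 1) := by positivity
    rw [← mul_assoc, ← mul_assoc] at h8
    exact Nat.le_of_mul_le_mul_left h8 hpos
  exact (Nat.pow_le_pow_iff_left (by norm_num)).mp h9

/-- the centre of the Sylow 2-subgroup as a homomorphic image of the additive group -/
def zHom (hm : 1 ≤ m) : Multiplicative F →* Sz F m where
  toFun b := T hF 0 (Multiplicative.toAdd b)
  map_one' := T_zero hF hm
  map_mul' _ _ := (T0_mul hF hm _ _).symm

/-- a non-linear irreducible character is not trivial on the centre of the Sylow subgroup -/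
theorem not_trivial_on_center (hm : 1 ≤ m) (χ : Sz F m → ℂ) (hχ : IsIrrCharacter (Sz F m) χ)
    (h1 : χ 1 ≠ 1) : χ (T hF 0 1) ≠ χ 1 := by
  classical
  intro heq
  have : Fintype (Sz F m) := Fintype.ofFinite _
  have hnorm := classInner_irr_self hχ
  obtain ⟨n, ρ, hirr, rfl⟩ := hχ
  have hsimple := Cfsg.Agent.S0325.result hm hF
  rw [Representation.char_one] at heq
  have h2 : ρ (T hF 0 1) = LinearMap.id :=
    (Cfsg.Agent.Lib.Helper4Eigen.char_eq_finrank_iff ρ (T hF 0 1)).mp heq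
  have hker : T hF 0 1 ∈ MonoidHom.ker ρ := by
    rw [MonoidHom.mem_ker, h2]; rfl
  have hne : T hF (0 : F) 1 ≠ 1 := by
    rw [← T_zero hF hm]
    intro h
    exact one_ne_zero (T_inj hF h).2
  have htop : MonoidHom.ker ρ = ⊤ := by
    rcases hsimple.eq_bot_or_eq_top_of_normal _ (MonoidHom.normal_ker ρ) with h | h
    · rw [h, Subgroup.mem_bot] at hker
      exact absurd hker hne
    · exact h
  have hall : ∀ g : Sz F m, ρ.character g = ρ.character 1 := by
    intro g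
    have : g ∈ MonoidHom.ker ρ := by rw [htop]; trivial
    rw [MonoidHom.mem_ker] at this
    unfold Representation.character
    rw [this, ← map_one ρ]
  unfold classInner at hnorm
  simp only [hall, Finset.sum_const, Finset.card_univ, nsmul_eq_mul] at hnorm
  rw [Representation.char_one, ← Nat.card_eq_fintype_card] at hnorm
  have hG : (Nat.card (Sz F m) : ℂ) ≠ 0 := by exact_mod_cast Nat.card_pos.ne'
  rw [Complex.conj_natCast, ← mul_assoc, inv_mul_cancel₀ hG, one_mul] at hnorm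
  apply h1
  rw [Representation.char_one]
  have h3 : Module.finrank ℂ (Fin n → ℂ) * Module.finrank ℂ (Fin n → ℂ) = 1 := by
    exact_mod_cast hnorm
  have h4 : Module.finrank ℂ (Fin n → ℂ) = 1 := Nat.eq_one_of_mul_eq_one_right h3
  rw [h4]
  simp

/-- Landazuri-Seitz bound for the Suzuki groups -/
theorem sz_degree_bound (hm : 1 ≤ m) (χ : Sz F m → ℂ) (hχ : IsIrrCharacter (Sz F m) χ)
    (h1 : χ 1 ≠ 1) : ∃ k : ℕ, χ 1 = k ∧ 2 ^ m * (2 ^ (2 * m + 1) - 1) ≤ k := by
  classical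
  set ψ := AddChar.FiniteField.primitiveChar_to_Complex F with hψdef
  have hψ : ψ.IsPrimitive := AddChar.FiniteField.primitiveChar_to_Complex_isPrimitive F
  have hchar := IsIrrCharacter.isCharacter hχ
  have hcl := IsIrrCharacter.isClassFunction hχ
  set f : F → ℂ := fun b => χ (T hF 0 b) with hf
  have hinv : ∀ κ : F, κ ≠ 0 → ∀ c, f (κ * c) = f c := by
    intro κ hκ c
    obtain ⟨c0, hc0, hc0'⟩ := norm2_surj hF hκ
    have := Cfsg.Agent.Lib.Helper8Sz5.H_T_H hF hm c0 hc0 0 c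
    rw [mul_zero, hc0'] at this
    simp only [hf]
    rw [← this, hcl]
  obtain ⟨_, hdeg, hval⟩ := two_coef ψ hψ f hinv
  obtain ⟨N0, hN0⟩ := coef_nat ψ (zHom hF hm) χ hchar 0
  obtain ⟨N1, hN1⟩ := coef_nat ψ (zHom hF hm) χ hchar 1
  have hfe : (fun c => χ (zHom hF hm (Multiplicative.ofAdd c))) = f := rfl
  rw [hfe] at hN0 hN1
  have hf0 : f 0 = χ 1 := by simp only [hf]; rw [T_zero hF hm]
  rw [hN0, hN1, hf0] at hdeg
  have hq1 : 1 ≤ Fintype.card F := Fintype.card_pos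
  have hdeg' : χ 1 = ((N0 + (Fintype.card F - 1) * N1 : ℕ) : ℂ) := by
    rw [hdeg]
    push_cast [Nat.cast_sub hq1]
    ring
  refine ⟨_, hdeg', ?_⟩
  -- N1 ≠ 0
  have hN1ne : N1 ≠ 0 := by
    rintro rfl
    apply not_trivial_on_center hF hm χ hχ h1
    have := hval 1 one_ne_zero
    rw [hN0, hN1] at this
    simp only [hf] at this
    rw [this, hdeg]
    simp
  -- restriction to the Sylow subgroup
  have : Fintype (Q hF hm) := Fintype.ofFinite _
  obtain ⟨a, ha1, _⟩ := IsCharacter.eq_sum_nat (IsCharacter.restrict (Q hF hm) hchar)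
  have hqne : (Fintype.card F : ℂ) ≠ 0 := by exact_mod_cast Fintype.card_ne_zero
  have hL : ∀ ξ : IrrCharacter (Q hF hm), ∃ l : ℕ,
      ∑ b : F, (ξ : Q hF hm → ℂ) (q hF hm 0 b) * (starRingEnd ℂ) (ψ b) =
        (Fintype.card F : ℂ) * l ∧ (l ≠ 0 → 2 ^ m ≤ l) := by
    intro ξ
    by_cases hS : ∑ b : F, (ξ : Q hF hm → ℂ) (q hF hm 0 b) * (starRingEnd ℂ) (ψ b) = 0
    · exact ⟨0, by rw [hS]; simp, fun h => absurd rfl h⟩
    · obtain ⟨hω, d, hd, hdm⟩ := irr_Q_bound hF hm ψ hψ ξ ξ.2 hS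
      refine ⟨d, ?_, fun _ => hdm⟩
      have : ∀ b : F, (ξ : Q hF hm → ℂ) (q hF hm 0 b) * (starRingEnd ℂ) (ψ b) = d := by
        intro b
        rw [hω, hd, mul_assoc, ← AddChar.map_neg_eq_conj, ← AddChar.map_add_eq_mul,
          add_neg_cancel, AddChar.map_zero_eq_one, mul_one]
      simp only [this, Finset.sum_const, Finset.card_univ, nsmul_eq_mul]
  choose l hl1 hl2 using hL
  have hsum : (N1 : ℂ) = ((∑ ξ, a ξ * l ξ : ℕ) : ℂ) := by
    rw [← hN1]
    unfold coef
    have e1 : ∀ c : F, f c = ∑ ξ : IrrCharacter (Q hF hm),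
        (a ξ : ℂ) * (ξ : Q hF hm → ℂ) (q hF hm 0 c) := by
      intro c
      have := congrFun ha1 (q hF hm 0 c)
      rw [Finset.sum_apply] at this
      simp only [Pi.smul_apply, smul_eq_mul] at this
      exact this
    simp only [e1, one_mul, Finset.sum_mul]
    rw [Finset.sum_comm]
    have e2 : ∀ ξ : IrrCharacter (Q hF hm),
        ∑ c : F, (a ξ : ℂ) * (ξ : Q hF hm → ℂ) (q hF hm 0 c) * (starRingEnd ℂ) (ψ c) =
        (a ξ : ℂ) * ((Fintype.card F : ℂ) * l ξ) := by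
      intro ξ
      rw [← hl1 ξ, Finset.mul_sum]
      apply Finset.sum_congr rfl
      intro c _
      ring
    simp only [e2]
    push_cast
    rw [Finset.mul_sum]
    apply Finset.sum_congr rfl
    intro ξ _
    field_simp
  have hsum' : N1 = ∑ ξ, a ξ * l ξ := by exact_mod_cast hsum
  have hN1m : 2 ^ m ≤ N1 := by
    have hne : ∑ ξ, a ξ * l ξ ≠ 0 := by rw [← hsum']; exact hN1ne
    obtain ⟨ξ0, _, hξ0⟩ := Finset.exists_ne_zero_of_sum_ne_zero hne
    have ha0 : a ξ0 ≠ 0 := left_ne_zero_of_mul hξ0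
    have hl0 : l ξ0 ≠ 0 := right_ne_zero_of_mul hξ0
    calc 2 ^ m ≤ l ξ0 := hl2 ξ0 hl0
      _ ≤ a ξ0 * l ξ0 := Nat.le_mul_of_pos_left _ (Nat.pos_of_ne_zero ha0)
      _ ≤ ∑ ξ, a ξ * l ξ :=
        Finset.single_le_sum (f := fun ξ => a ξ * l ξ) (fun _ _ => Nat.zero_le _)
          (Finset.mem_univ ξ0)
      _ = N1 := hsum'.symm
  rw [hF]
  calc 2 ^ m * (2 ^ (2 * m + 1) - 1) = (2 ^ (2 * m + 1) - 1) * 2 ^ m := mul_comm _ _
    _ ≤ (2 ^ (2 * m + 1) - 1) * N1 := Nat.mul_le_mul_left _ hN1m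
    _ ≤ N0 + (2 ^ (2 * m + 1) - 1) * N1 := Nat.le_add_left _ _

end Cfsg.Agent.Lib.Helper44SzDeg
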