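import Mathlib
import Cfsg.Prelude.Def_Characters

set_option autoImplicit false

/-! PROJECT 45 (S2336): vocabulary. -/

namespace Cfsg.Agent.Lib.Helper44VDefs

open Matrix Cfsg

variable {F : Type*} [Field F] [Fintype F] [DecidableEq F]

/-- `ph n l g = (q-1)⁻¹ ∑_c conj(l c) #{v ≠ 0 | g v = c v}` -/
noncomputable def ph (n : ℕ) (l : AddChar (Additive Fˣ) ℂ)
    (g : Matrix.SpecialLinearGroup (Fin n) F) : ℂ :=
  ((Fintype.card Fˣ : ℂ))⁻¹ * ∑ c : Fˣ, (starRingEnd ℂ) (l (Additive.ofMul c)) *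
    (Nat.card {v : Fin n → F // v ≠ 0 ∧ (g : Matrix (Fin n) (Fin n) F).mulVec v = (c : F) • v} : ℂ)

end Cfsg.Agent.Lib.Helper44VDefs
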