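import Mathlib
import Cfsg.Prelude.Def_ClassicalGeometry
import Cfsg.Agent.Lib.Helper99Symp

set_option autoImplicit false

namespace Cfsg.Agent.Lib.Helper99SympForm

open Matrix

variable {F : Type*} [Field F] (d : ℕ)

/-- `Cfsg.sympForm` as a bilinear form of Mathlib. -/
noncomputable def sympB : LinearMap.BilinForm F (Fin d ⊕ Fin d → F) :=
  Matrix.toBilin' (Matrix.J (Fin d) F)

lemma sympB_apply (u v : Fin d ⊕ Fin d → F) : sympB d u v = Cfsg.sympForm d F u v :=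
  Matrix.toBilin'_apply' _ _ _

lemma sympForm_self (v : Fin d ⊕ Fin d → F) : Cfsg.sympForm d F v v = 0 := by
  unfold Cfsg.sympForm
  simp only [Matrix.J, Matrix.fromBlocks_mulVec, dotProduct, Fintype.sum_sum_type, Sum.elim_inl,
    Sum.elim_inr, Matrix.zero_mulVec, Matrix.neg_mulVec, Matrix.one_mulVec,
    Pi.neg_apply, zero_add, add_zero, Function.comp]
  rw [← Finset.sum_add_distrib]
  apply Finset.sum_eq_zero
  intro i _
  ring

lemma sympForm_nondeg (u : Fin d ⊕ Fin d → F) (hu : u ≠ 0) : ∃ v, Cfsg.sympForm d F u v ≠ 0 := by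
  obtain ⟨k, hk⟩ := Function.ne_iff.1 hu
  refine ⟨(-Matrix.J (Fin d) F) *ᵥ Pi.single k 1, ?_⟩
  unfold Cfsg.sympForm
  rw [Matrix.mulVec_mulVec, mul_neg, Matrix.J_squared, neg_neg, Matrix.one_mulVec,
    dotProduct_single_one]
  exact hk

lemma sympForm_mulVec {A : Matrix (Fin d ⊕ Fin d) (Fin d ⊕ Fin d) F}
    (hA : A ∈ Matrix.symplecticGroup (Fin d) F) (u v : Fin d ⊕ Fin d → F) :
    Cfsg.sympForm d F (A *ᵥ u) (A *ᵥ v) = Cfsg.sympForm d F u v := by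
  unfold Cfsg.sympForm
  have h := SymplecticGroup.mem_iff'.1 hA
  rw [Matrix.mulVec_mulVec, ← Matrix.vecMul_transpose, ← Matrix.dotProduct_mulVec,
    Matrix.mulVec_mulVec, ← mul_assoc, h]

/-- scalars `z` with `x ^ 2 = z • 1` for symplectic `x` satisfy `z * z = 1` (if `0 < d`). -/
lemma sq_scalar (hd : 0 < d) {A : Matrix (Fin d ⊕ Fin d) (Fin d ⊕ Fin d) F}
    (hA : A ∈ Matrix.symplecticGroup (Fin d) F) {z : F} (hz : A * A = z • 1) : z * z = 1 := by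
  have hu : (Pi.single (Sum.inl ⟨0, hd⟩) 1 : Fin d ⊕ Fin d → F) ≠ 0 := by
    intro h
    have := congrFun h (Sum.inl ⟨0, hd⟩)
    simp at this
  obtain ⟨v, hv⟩ := sympForm_nondeg d _ hu
  set u : Fin d ⊕ Fin d → F := Pi.single (Sum.inl ⟨0, hd⟩) 1
  have h1 : Cfsg.sympForm d F (A *ᵥ (A *ᵥ u)) (A *ᵥ (A *ᵥ v)) = Cfsg.sympForm d F u v := by
    rw [sympForm_mulVec d hA, sympForm_mulVec d hA]
  rw [Matrix.mulVec_mulVec, Matrix.mulVec_mulVec, hz] at h1
  have h2 : Cfsg.sympForm d F ((z • (1 : Matrix (Fin d ⊕ Fin d) (Fin d ⊕ Fin d) F)) *ᵥ u)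
      ((z • (1 : Matrix (Fin d ⊕ Fin d) (Fin d ⊕ Fin d) F)) *ᵥ v) = z * z * Cfsg.sympForm d F u v := by
    rw [← sympB_apply, ← sympB_apply]
    simp [Matrix.smul_mulVec, mul_assoc]
  rw [h2] at h1
  exact mul_right_cancel₀ hv (by rw [h1, one_mul])

end Cfsg.Agent.Lib.Helper99SympForm
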