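import Mathlib
import Cfsg.Agent.Lib.Helper44Heis
import Cfsg.Agent.Lib.Helper4Char2
import Cfsg.Agent.Lib.Helper99SympForm

set_option autoImplicit false

namespace Cfsg.Agent.Lib.Helper44Weil1

open Matrix Cfsg Cfsg.Agent.Lib.Helper4Char Cfsg.Agent.Lib.Helper4Char2
  Cfsg.Agent.Lib.Helper4Char4 Cfsg.Agent.Lib.Helper44Wt
  Cfsg.Agent.Lib.Helper44Ab Cfsg.Agent.Lib.Helper44Heis

section General

variable {E : Type*} [Group E] [Fintype E] {A : Type*} [AddCommGroup A] [Fintype A]

/-- values of an irreducible character lying over a fully ramified central character -/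
theorem irr_central_values (u : Multiplicative A →* E) (hc : ∀ a g, g * u a = u a * g)
    (l : AddChar A ℂ)
    (hl : ∀ g, g ∉ Set.range u → ∃ h a, h * g * h⁻¹ = u (Multiplicative.ofAdd a) * g ∧ l a ≠ 1)
    (ξ : E → ℂ) (hξ : IsIrrCharacter E ξ) (hw : wt u ξ l ≠ 0) :
    (∀ b, ξ (u (Multiplicative.ofAdd b)) = ξ 1 * l b) ∧ ∀ g, g ∉ Set.range u → ξ g = 0 := by
  classical
  have h1ne := Cfsg.Agent.Lib.Helper83Char.irr_one_ne_zero hξ
  have hcent : ∀ (b : A) (x : E), ξ (u (Multiplicative.ofAdd b) * x) =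
      ξ (u (Multiplicative.ofAdd b)) * ξ x / ξ 1 :=
    fun b x => irr_central_mul hξ _ (hc _) x
  have hpsi : ∀ b : A, l b * (starRingEnd ℂ) (l b) = 1 := by
    intro b
    rw [← AddChar.map_neg_eq_conj, ← AddChar.map_add_eq_mul, add_neg_cancel,
      AddChar.map_zero_eq_one]
  set S := ∑ b : A, ξ (u (Multiplicative.ofAdd b)) * (starRingEnd ℂ) (l b) with hSdef
  have hS : S ≠ 0 := by
    intro h0
    apply hw
    unfold wt
    rw [← hSdef, h0, mul_zero]
  have hω : ∀ b0, ξ (u (Multiplicative.ofAdd b0)) = ξ 1 * l b0 := by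
    intro b0
    have e1 : S = ∑ b : A, ξ (u (Multiplicative.ofAdd (b0 + b))) *
        (starRingEnd ℂ) (l (b0 + b)) := by
      rw [hSdef, ← Equiv.sum_comp (Equiv.addLeft b0)]
      rfl
    have e2 : ∑ b : A, ξ (u (Multiplicative.ofAdd (b0 + b))) * (starRingEnd ℂ) (l (b0 + b)) =
        (ξ (u (Multiplicative.ofAdd b0)) / ξ 1 * (starRingEnd ℂ) (l b0)) * S := by
      rw [hSdef, Finset.mul_sum]
      apply Finset.sum_congr rfl
      intro b _
      rw [ofAdd_add, map_mul, hcent, AddChar.map_add_eq_mul, map_mul]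
      ring
    rw [e2] at e1
    have e3 : ξ (u (Multiplicative.ofAdd b0)) / ξ 1 * (starRingEnd ℂ) (l b0) = 1 := by
      have : (ξ (u (Multiplicative.ofAdd b0)) / ξ 1 * (starRingEnd ℂ) (l b0) - 1) * S = 0 := by
        linear_combination -e1
      have := (mul_eq_zero.mp this).resolve_right hS
      linear_combination this
    have e4 := hpsi b0
    field_simp at e3
    calc ξ (u (Multiplicative.ofAdd b0))
        = ξ (u (Multiplicative.ofAdd b0)) * (l b0 * (starRingEnd ℂ) (l b0)) := by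
          rw [e4, mul_one]
      _ = (ξ (u (Multiplicative.ofAdd b0)) * (starRingEnd ℂ) (l b0)) * l b0 := by ring
      _ = ξ 1 * l b0 := by rw [e3]
  refine ⟨hω, ?_⟩
  have hcl := IsIrrCharacter.isClassFunction hξ
  intro g hg
  obtain ⟨h, a, e1, hne⟩ := hl g hg
  have e2 := hcl g h
  rw [e1, hcent, hω] at e2
  have e3 : (l a - 1) * ξ g = 0 := by
    field_simp at e2
    linear_combination e2
  exact (mul_eq_zero.mp e3).resolve_left (sub_ne_zero.mpr hne)

/-- every character of a subgroup (here: the image of an injective homomorphism from an abelian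
group) lies under some irreducible character -/
theorem exists_irr_over (u : Multiplicative A →* E) (hinj : Function.Injective u)
    (l : AddChar A ℂ) : ∃ ξ : IrrCharacter E, wt u (ξ : E → ℂ) l ≠ 0 := by
  classical
  by_contra hcon
  push Not at hcon
  have h1 : ∑ ξ : IrrCharacter E, (ξ : E → ℂ) 1 * wt u (ξ : E → ℂ) l = 0 := by
    apply Finset.sum_eq_zero
    intro ξ _
    rw [hcon ξ, mul_zero]
  unfold wt at h1
  have h2 : ∑ ξ : IrrCharacter E, (ξ : E → ℂ) 1 * ((Fintype.card A : ℂ)⁻¹ *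
      ∑ a : A, (ξ : E → ℂ) (u (Multiplicative.ofAdd a)) * (starRingEnd ℂ) (l a)) =
      (Fintype.card A : ℂ)⁻¹ * ∑ a : A, (∑ ξ : IrrCharacter E, (ξ : E → ℂ) 1 *
        (ξ : E → ℂ) (u (Multiplicative.ofAdd a))) * (starRingEnd ℂ) (l a) := by
    simp only [Finset.mul_sum, Finset.sum_mul]
    rw [Finset.sum_comm]
    apply Finset.sum_congr rfl
    intro a _
    apply Finset.sum_congr rfl
    intro ξ _
    ring
  rw [h2] at h1
  simp only [sum_degree_mul] at h1
  have h3 : ∀ a : A, u (Multiplicative.ofAdd a) = 1 ↔ a = 0 := by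
    intro a
    constructor
    · intro h
      have : Multiplicative.ofAdd a = 1 := hinj (by rw [h, map_one])
      exact this
    · rintro rfl
      exact map_one u
  simp only [h3, ite_mul, zero_mul, Finset.sum_ite_eq', Finset.mem_univ, if_true,
    AddChar.map_zero_eq_one, map_one, mul_one] at h1
  have hA : (Fintype.card A : ℂ) ≠ 0 := by exact_mod_cast Fintype.card_ne_zero
  have hE : (Nat.card E : ℂ) ≠ 0 := by exact_mod_cast Nat.card_pos.ne'
  rcases mul_eq_zero.mp h1 with h | h
  · exact hA (inv_eq_zero.mp h)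
  · exact hE h

end General

section HGchar

variable {A B : Type*} [AddCommGroup A] [AddCommGroup B] [Fintype A] [Fintype B]
  [DecidableEq A] (κ : A →+ A →+ B)

/-- the function which is the fully ramified character -/
noncomputable def thetaFun (d : ℕ) (l : AddChar B ℂ) (x : HG κ) : ℂ :=
  if x.fst = 0 then (d : ℂ) * l x.snd else 0

theorem thetaFun_irr (d : ℕ) (hd : Fintype.card A = d ^ 2) (l : AddChar B ℂ)
    (hl : ∀ c : A, c ≠ 0 → ∃ c' : A, l (κ c' c - κ c c') ≠ 1) :
    IsIrrCharacter (HG κ) (thetaFun κ d l) := by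
  classical
  have hc : ∀ (a : Multiplicative B) (g : HG κ), g * zH κ a = zH κ a * g := by
    intro a g
    apply HG.ext
    · show g.fst + 0 = 0 + g.fst
      rw [add_zero, zero_add]
    · show g.snd + Multiplicative.toAdd a + κ g.fst 0 =
        Multiplicative.toAdd a + g.snd + κ 0 g.fst
      simp [add_comm]
  have hinj : Function.Injective (zH κ) := by
    intro a b hab
    exact congrArg HG.snd hab
  have hrange : ∀ g : HG κ, g ∉ Set.range (zH κ) → g.fst ≠ 0 := by
    intro g hg h0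
    apply hg
    refine ⟨Multiplicative.ofAdd g.snd, ?_⟩
    apply HG.ext
    · exact h0.symm
    · rfl
  have hl' : ∀ g, g ∉ Set.range (zH κ) →
      ∃ h a, h * g * h⁻¹ = zH κ (Multiplicative.ofAdd a) * g ∧ l a ≠ 1 := by
    intro g hg
    obtain ⟨c', hc'⟩ := hl g.fst (hrange g hg)
    refine ⟨⟨c', 0⟩, _, ?_, hc'⟩
    rw [mul_inv_eq_iff_eq_mul]
    apply HG.ext
    · show c' + g.fst = 0 + g.fst + c'
      abel
    · show 0 + g.snd + κ c' g.fst =
        (κ c' g.fst - κ g.fst c') + g.snd + κ 0 g.fst + 0 + κ (0 + g.fst) c'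
      simp
      abel
  obtain ⟨ξ, hξ⟩ := exists_irr_over (zH κ) hinj l
  obtain ⟨d', hd', hcard⟩ := irr_central_bound (zH κ) hc hinj l hl' ξ ξ.2 hξ
  obtain ⟨hv1, hv2⟩ := irr_central_values (zH κ) hc l hl' ξ ξ.2 hξ
  rw [HG.card, hd, mul_comm] at hcard
  have h1 : d ^ 2 = d' ^ 2 := Nat.eq_of_mul_eq_mul_left Fintype.card_pos hcard
  have h2 : d = d' := (Nat.pow_left_injective (n := 2) (by norm_num)) h1
  have h3 : (ξ : HG κ → ℂ) 1 = d := by
    have hA : (Fintype.card B : ℂ) ≠ 0 := by exact_mod_cast Fintype.card_ne_zero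
    have : wt (zH κ) (ξ : HG κ → ℂ) l = (ξ : HG κ → ℂ) 1 := by
      unfold wt
      have : ∀ b : B, (ξ : HG κ → ℂ) (zH κ (Multiplicative.ofAdd b)) * (starRingEnd ℂ) (l b) =
          (ξ : HG κ → ℂ) 1 := by
        intro b
        rw [hv1, mul_assoc, ← AddChar.map_neg_eq_conj, ← AddChar.map_add_eq_mul, add_neg_cancel,
          AddChar.map_zero_eq_one, mul_one]
      simp only [this, Finset.sum_const, Finset.card_univ, nsmul_eq_mul]
      field_simp
    rw [← this, hd', h2]
  have h4 : thetaFun κ d l = (ξ : HG κ → ℂ) := by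
    funext x
    unfold thetaFun
    by_cases hx : x.fst = 0
    · rw [if_pos hx, ← h3, ← hv1]
      apply congrArg
      apply HG.ext
      · exact hx.symm
      · rfl
    · rw [if_neg hx, hv2]
      rintro ⟨b, rfl⟩
      exact hx rfl
  rw [h4]
  exact ξ.2

end HGchar

end Cfsg.Agent.Lib.Helper44Weil1
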