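import Mathlib
import Cfsg.Agent.S0867
import Cfsg.Agent.S0888
import Cfsg.Agent.Lib.Helper19Fact
import Cfsg.Agent.Lib.Helper77Glaub4
import Cfsg.Agent.Lib.Helper83Char
import Cfsg.Agent.Lib.Helper4Char4

set_option autoImplicit false

namespace Cfsg.Agent.Lib.Helper44Weil2

open Cfsg Cfsg.Agent.Lib.Helper4Char Cfsg.Agent.Lib.Helper4Char4 SemidirectProduct

section General

variable {H G : Type*} [Group H] [Group G] (φ : G →* MulAut H)

instance instFiniteSD [Finite H] [Finite G] : Finite (H ⋊[φ] G) :=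
  Finite.of_equiv _ SemidirectProduct.equivProd.symm

/-- the kernel of the projection is the normal factor -/
def kerEquiv : (rightHom : H ⋊[φ] G →* G).ker ≃* H where
  toFun n := n.1.left
  invFun h := ⟨inl h, by simp [MonoidHom.mem_ker]⟩
  left_inv n := by
    apply Subtype.ext
    apply SemidirectProduct.ext
    · simp
    · simpa using (MonoidHom.mem_ker.mp n.2).symm
  right_inv h := by simp
  map_mul' a b := by
    have : a.1.right = 1 := MonoidHom.mem_ker.mp a.2
    simp [this]

/-- a function on the normal factor, seen on the kernel of the projection -/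
def kerChar (θ : H → ℂ) : (rightHom : H ⋊[φ] G →* G).ker → ℂ := fun n => θ n.1.left

theorem kerChar_irr {θ : H → ℂ} (hθ : IsIrrCharacter H θ) :
    IsIrrCharacter (rightHom : H ⋊[φ] G →* G).ker (kerChar φ θ) :=
  Cfsg.Agent.Lib.Helper83Char.irr_comp_mulEquiv (kerEquiv φ) hθ

theorem kerChar_inv {θ : H → ℂ} (hcl : IsClassFunction H θ) (hinv : ∀ g h, θ (φ g h) = θ h)
    (g : H ⋊[φ] G) (n : (rightHom : H ⋊[φ] G →* G).ker)
    (hm : g * n * g⁻¹ ∈ (rightHom : H ⋊[φ] G →* G).ker) :
    kerChar φ θ ⟨g * n * g⁻¹, hm⟩ = kerChar φ θ n := by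
  have h1 : n.1.right = 1 := MonoidHom.mem_ker.mp n.2
  show θ (g * n.1 * g⁻¹).left = θ n.1.left
  have h2 : (g * n.1 * g⁻¹).left = g.left * φ g.right n.1.left * g.left⁻¹ := by
    simp [h1]
  rw [h2, hcl, hinv]

variable [Finite H] [Finite G]

/-- coprime extension -/
theorem ext_of_coprime {θ : H → ℂ} (hθ : IsIrrCharacter H θ) (hinv : ∀ g h, θ (φ g h) = θ h)
    (d : ℕ) (hd : θ 1 = d) (hcop : Nat.Coprime (Nat.card G) (Nat.card H * d)) :
    ∃ η : H ⋊[φ] G → ℂ, IsCharacter (H ⋊[φ] G) η ∧ ∀ h, η (inl h) = θ h := by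
  have hcl := IsIrrCharacter.isClassFunction hθ
  have hidx : (rightHom : H ⋊[φ] G →* G).ker.index = Nat.card G := by
    rw [Subgroup.index_ker, MonoidHom.range_eq_top.mpr rightHom_surjective]
    exact Nat.card_congr Subgroup.topEquiv.toEquiv
  have hdet : detOrder (kerChar φ θ) ∣ Nat.card H := by
    have := Cfsg.Agent.Lib.Helper77Glaub4.detOrder_dvd_card
      (IsIrrCharacter.isCharacter (kerChar_irr φ hθ))
    rwa [Nat.card_congr (kerEquiv φ).toEquiv] at this
  obtain ⟨χ, ⟨h1, h2, -⟩, -⟩ := Cfsg.Agent.S0867.result (rightHom : H ⋊[φ] G →* G).ker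
    (kerChar φ θ) (kerChar_irr φ hθ) (fun g n => kerChar_inv φ hcl hinv g n _) d hd
    (by
      rw [hidx]
      exact Nat.Coprime.coprime_dvd_right (Nat.mul_dvd_mul_right hdet d) hcop)
  refine ⟨χ, IsIrrCharacter.isCharacter h1, fun h => ?_⟩
  have := h2 ⟨inl h, by simp [MonoidHom.mem_ker]⟩
  rw [this]
  show θ (inl h : H ⋊[φ] G).left = θ h
  rw [left_inl]

/-- the homomorphism from the preimage of a subgroup to the smaller semidirect product -/
def toSub (R : Subgroup G) :
    (R.comap (rightHom : H ⋊[φ] G →* G)) →* H ⋊[φ.comp R.subtype] R where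
  toFun x := ⟨x.1.left, ⟨x.1.right, x.2⟩⟩
  map_one' := rfl
  map_mul' x y := by
    apply SemidirectProduct.ext
    · simp
    · simp
      rfl

/-- extension from Sylow subgroups -/
theorem ext_of_sylow {θ : H → ℂ} (hθ : IsIrrCharacter H θ) (hinv : ∀ g h, θ (φ g h) = θ h)
    (hsyl : ∀ r : ℕ, r.Prime → ∃ R : Subgroup G, Nat.Coprime R.index r ∧
      (∃ k : ℕ, Nat.card R = r ^ k) ∧
      ∃ η : H ⋊[φ.comp R.subtype] R → ℂ, IsCharacter _ η ∧ ∀ h, η (inl h) = θ h) :
    ∃ χ : H ⋊[φ] G → ℂ, IsIrrCharacter (H ⋊[φ] G) χ ∧ ∀ h, χ (inl h) = θ h := by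
  have hcl := IsIrrCharacter.isClassFunction hθ
  obtain ⟨χ, h1, h2⟩ := Cfsg.Agent.S0888.result (rightHom : H ⋊[φ] G →* G).ker
    (kerChar φ θ) (kerChar_irr φ hθ) (fun g n => kerChar_inv φ hcl hinv g n _) (by
      intro r hr
      obtain ⟨R, hR1, ⟨k, hk⟩, η, hη1, hη2⟩ := hsyl r hr
      have hNP : (rightHom : H ⋊[φ] G →* G).ker ≤ R.comap (rightHom : H ⋊[φ] G →* G) := by
        intro x hx
        rw [Subgroup.mem_comap, MonoidHom.mem_ker.mp hx]
        exact R.one_mem
      have hchar : IsCharacter (R.comap (rightHom : H ⋊[φ] G →* G))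
          (fun x => η (toSub φ R x)) := IsCharacter.comp (toSub φ R) hη1
      let jH : H →* (R.comap (rightHom : H ⋊[φ] G →* G)) :=
        { toFun := fun h => ⟨inl h, by simp [Subgroup.mem_comap, R.one_mem]⟩
          map_one' := by apply Subtype.ext; simp
          map_mul' := fun a b => by apply Subtype.ext; simp }
      have hval : ∀ h : H, η (toSub φ R (jH h)) = θ h := by
        intro h
        rw [← hη2 h]
        apply congrArg
        apply SemidirectProduct.ext
        · rfl
        · rfl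
      refine ⟨R.comap rightHom, hNP, fun x => η (toSub φ R x), ?_, ⟨k, ?_⟩, ?_, ?_⟩
      · rw [Subgroup.index_comap_of_surjective _ rightHom_surjective]
        exact hR1
      · rw [← hk, ← MonoidHom.comap_bot, Subgroup.relIndex_comap,
          Subgroup.map_comap_eq_self_of_surjective rightHom_surjective, Subgroup.relIndex_bot_left]
      · apply Cfsg.Agent.Lib.Helper19Fact.irr_of_res_irr jH hchar
        have : (fun y => η (toSub φ R (jH y))) = θ := funext hval
        rw [this]
        exact hθ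
      · intro n
        show _ = θ n.1.left
        rw [← hval]
        apply congrArg
        apply congrArg
        apply Subtype.ext
        apply SemidirectProduct.ext
        · simp [jH]
        · simpa [jH] using MonoidHom.mem_ker.mp n.2)
  refine ⟨χ, h1, fun h => ?_⟩
  have := h2 ⟨inl h, by simp [MonoidHom.mem_ker]⟩
  rw [this]
  show θ (inl h : H ⋊[φ] G).left = θ h
  rw [left_inl]

/-- the norm of an extension along any homomorphism into the complement -/
theorem norm_sum [Fintype H] {χ : H ⋊[φ] G → ℂ} (hχ : IsCharacter (H ⋊[φ] G) χ) {θ : H → ℂ}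
    (hθ : IsIrrCharacter H θ) (hres : ∀ h, χ (inl h) = θ h)
    {R : Type*} [Group R] [Fintype R] (j : R →* G) :
    ∑ r : R, ∑ h : H, χ (inl h * inr (j r)) * (starRingEnd ℂ) (χ (inl h * inr (j r))) =
      (Fintype.card H : ℂ) * (Fintype.card R : ℂ) := by
  classical
  let mp : H ⋊[φ.comp j] R →* H ⋊[φ] G :=
    SemidirectProduct.map (MonoidHom.id H) j (by intro g; rfl)
  let _ : Fintype (H ⋊[φ.comp j] R) := Fintype.ofEquiv _ SemidirectProduct.equivProd.symm
  have hchar : IsCharacter (H ⋊[φ.comp j] R) (fun x => χ (mp x)) := IsCharacter.comp mp hχ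
  have hirr : IsIrrCharacter (H ⋊[φ.comp j] R) (fun x => χ (mp x)) := by
    apply Cfsg.Agent.Lib.Helper19Fact.irr_of_res_irr (inl : H →* H ⋊[φ.comp j] R) hchar
    have : (fun y : H => χ (mp (inl y))) = θ := by
      funext y
      rw [← hres y]
      apply congrArg
      simp [mp]
    rw [this]
    exact hθ
  have h1 := classInner_irr_self hirr
  unfold classInner at h1
  have hcard : (Nat.card (H ⋊[φ.comp j] R) : ℂ) = (Fintype.card H : ℂ) * (Fintype.card R : ℂ) := by
    rw [Nat.card_congr SemidirectProduct.equivProd, Nat.card_prod, Nat.card_eq_fintype_card,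
      Nat.card_eq_fintype_card]
    push_cast
    rfl
  have hne : (Nat.card (H ⋊[φ.comp j] R) : ℂ) ≠ 0 := by exact_mod_cast Nat.card_pos.ne'
  rw [← hcard]
  have h2 : ∑ x : H ⋊[φ.comp j] R, χ (mp x) * (starRingEnd ℂ) (χ (mp x)) =
      (Nat.card (H ⋊[φ.comp j] R) : ℂ) := by
    field_simp at h1
    exact h1
  rw [← h2, ← Equiv.sum_comp (SemidirectProduct.equivProd (φ := φ.comp j)).symm,
    Fintype.sum_prod_type, Finset.sum_comm]
  apply Finset.sum_congr rfl
  intro h _
  apply Finset.sum_congr rfl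
  intro r _
  have : mp (SemidirectProduct.equivProd.symm (h, r)) = inl h * inr (j r) := by
    apply SemidirectProduct.ext
    · simp [mp, SemidirectProduct.equivProd]
    · simp [mp, SemidirectProduct.equivProd]
  rw [this]

end General

end Cfsg.Agent.Lib.Helper44Weil2
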