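import Mathlib
import Cfsg.Agent.Lib.Helper44Weil1
import Cfsg.Agent.Lib.Helper44Weil2
import Cfsg.Agent.Lib.Helper19Cliff
import Cfsg.Agent.Lib.Helper82Linear

set_option autoImplicit false

namespace Cfsg.Agent.Lib.Helper44Weil3

open Matrix Cfsg Cfsg.Agent.Lib.Helper4Char Cfsg.Agent.Lib.Helper4Char4
  Cfsg.Agent.Lib.Helper44Heis Cfsg.Agent.Lib.Helper44Weil1 Cfsg.Agent.Lib.Helper44Weil2
  Cfsg.Agent.Lib.Helper99SympForm SemidirectProduct

variable (F : Type*) [Field F] (n : ℕ)

/-- half the symplectic form, as a biadditive map -/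
noncomputable def kap : (Fin n ⊕ Fin n → F) →+ (Fin n ⊕ Fin n → F) →+ F :=
  AddMonoidHom.mk' (fun v => ((2⁻¹ : F) • sympB n v).toAddMonoidHom) (by
    intro a b
    ext w
    simp [mul_add])

variable {F n}

theorem kap_apply (v w : Fin n ⊕ Fin n → F) : kap F n v w = 2⁻¹ * Cfsg.sympForm n F v w := by
  rw [← sympB_apply]
  rfl

theorem sympForm_add_left (u v w : Fin n ⊕ Fin n → F) :
    Cfsg.sympForm n F (u + v) w = Cfsg.sympForm n F u w + Cfsg.sympForm n F v w := by
  simp only [← sympB_apply, map_add, LinearMap.add_apply]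

theorem sympForm_add_right (u v w : Fin n ⊕ Fin n → F) :
    Cfsg.sympForm n F u (v + w) = Cfsg.sympForm n F u v + Cfsg.sympForm n F u w := by
  simp only [← sympB_apply, map_add]

theorem sympForm_smul_right (c : F) (u v : Fin n ⊕ Fin n → F) :
    Cfsg.sympForm n F u (c • v) = c * Cfsg.sympForm n F u v := by
  simp only [← sympB_apply, map_smul, smul_eq_mul]

theorem sympForm_swap (u v : Fin n ⊕ Fin n → F) :
    Cfsg.sympForm n F u v = - Cfsg.sympForm n F v u := by
  have h := sympForm_self n (u + v)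
  rw [sympForm_add_left, sympForm_add_right, sympForm_add_right, sympForm_self, sympForm_self] at h
  linear_combination h

theorem kap_sub (h2 : (2 : F) ≠ 0) (v w : Fin n ⊕ Fin n → F) :
    kap F n v w - kap F n w v = Cfsg.sympForm n F v w := by
  rw [kap_apply, kap_apply, sympForm_swap w v]
  field_simp
  ring

theorem coe_inv_mul_sp (g : ↥(Matrix.symplecticGroup (Fin n) F)) :
    (g⁻¹).1 * g.1 = 1 := congrArg Subtype.val (inv_mul_cancel g)

theorem coe_mul_inv_sp (g : ↥(Matrix.symplecticGroup (Fin n) F)) :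
    g.1 * (g⁻¹).1 = 1 := congrArg Subtype.val (mul_inv_cancel g)

theorem kap_mulVec (g : ↥(Matrix.symplecticGroup (Fin n) F)) (v w : Fin n ⊕ Fin n → F) :
    kap F n (g.1 *ᵥ v) (g.1 *ᵥ w) = kap F n v w := by
  rw [kap_apply, kap_apply, sympForm_mulVec n g.2]

/-- the action of a symplectic matrix on the Heisenberg group -/
noncomputable def actOne (g : ↥(Matrix.symplecticGroup (Fin n) F)) : MulAut (HG (kap F n)) where
  toFun x := ⟨g.1 *ᵥ x.fst, x.snd⟩
  invFun x := ⟨(g⁻¹).1 *ᵥ x.fst, x.snd⟩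
  left_inv x := by
    apply HG.ext
    · show (g⁻¹).1 *ᵥ (g.1 *ᵥ x.fst) = x.fst
      rw [Matrix.mulVec_mulVec, coe_inv_mul_sp, Matrix.one_mulVec]
    · rfl
  right_inv x := by
    apply HG.ext
    · show g.1 *ᵥ ((g⁻¹).1 *ᵥ x.fst) = x.fst
      rw [Matrix.mulVec_mulVec, coe_mul_inv_sp, Matrix.one_mulVec]
    · rfl
  map_mul' x y := by
    apply HG.ext
    · show g.1 *ᵥ (x.fst + y.fst) = g.1 *ᵥ x.fst + g.1 *ᵥ y.fst
      rw [Matrix.mulVec_add]
    · show x.snd + y.snd + kap F n x.fst y.fst =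
        x.snd + y.snd + kap F n (g.1 *ᵥ x.fst) (g.1 *ᵥ y.fst)
      rw [kap_mulVec]

variable (F n)

/-- the action of the symplectic group on the Heisenberg group -/
noncomputable def act : ↥(Matrix.symplecticGroup (Fin n) F) →* MulAut (HG (kap F n)) where
  toFun := actOne
  map_one' := by
    ext x
    · show ((1 : Matrix (Fin n ⊕ Fin n) (Fin n ⊕ Fin n) F) *ᵥ x.fst) _ = x.fst _
      rw [Matrix.one_mulVec]
    · rfl
  map_mul' g h := by
    ext x
    · show ((g.1 * h.1) *ᵥ x.fst) _ = (g.1 *ᵥ (h.1 *ᵥ x.fst)) _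
      rw [Matrix.mulVec_mulVec]
    · rfl

variable {F n}

theorem act_fst (g : ↥(Matrix.symplecticGroup (Fin n) F)) (x : HG (kap F n)) :
    (act F n g x).fst = g.1 *ᵥ x.fst := rfl

theorem act_snd (g : ↥(Matrix.symplecticGroup (Fin n) F)) (x : HG (kap F n)) :
    (act F n g x).snd = x.snd := rfl

theorem mulVec_eq_zero_sp (g : ↥(Matrix.symplecticGroup (Fin n) F)) (v : Fin n ⊕ Fin n → F) :
    g.1 *ᵥ v = 0 ↔ v = 0 := by
  constructor
  · intro h
    have := congrArg (fun w => (g⁻¹).1 *ᵥ w) h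
    simpa [Matrix.mulVec_mulVec, coe_inv_mul_sp] using this
  · rintro rfl
    exact Matrix.mulVec_zero _

section Theta

variable [Fintype F] [DecidableEq F]

/-- the fully ramified character of the Heisenberg group -/
noncomputable def theta (ψ : AddChar F ℂ) : HG (kap F n) → ℂ :=
  thetaFun (kap F n) (Fintype.card F ^ n) ψ

theorem theta_apply (ψ : AddChar F ℂ) (x : HG (kap F n)) :
    theta ψ x = if x.fst = 0 then ((Fintype.card F ^ n : ℕ) : ℂ) * ψ x.snd else 0 := rfl

theorem exists_symp_ne (ψ : AddChar F ℂ) (hψ : ψ ≠ 1) (c : Fin n ⊕ Fin n → F) (hc : c ≠ 0) :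
    ∃ c', ψ (Cfsg.sympForm n F c c') ≠ 1 := by
  obtain ⟨a, ha⟩ : ∃ a, ψ a ≠ 1 := by
    by_contra hcon
    push Not at hcon
    apply hψ
    ext a
    simpa using hcon a
  obtain ⟨v, hv⟩ := sympForm_nondeg n c hc
  refine ⟨(a / Cfsg.sympForm n F c v) • v, ?_⟩
  rw [sympForm_smul_right, div_mul_cancel₀ _ hv]
  exact ha

theorem theta_irr (h2 : (2 : F) ≠ 0) (ψ : AddChar F ℂ) (hψ : ψ ≠ 1) :
    IsIrrCharacter (HG (kap F n)) (theta ψ) := by
  apply thetaFun_irr
  · rw [Fintype.card_fun, Fintype.card_sum, Fintype.card_fin, ← pow_mul]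
    congr 1
    ring
  · intro c hc
    obtain ⟨c', hc'⟩ := exists_symp_ne ψ hψ c hc
    refine ⟨-c', ?_⟩
    rw [kap_sub h2, sympForm_swap]
    have : Cfsg.sympForm n F c (-c') = - Cfsg.sympForm n F c c' := by
      have := sympForm_smul_right (-1) c c'
      simpa using this
    rw [this, neg_neg]
    exact hc'

theorem theta_inv (ψ : AddChar F ℂ) (g : ↥(Matrix.symplecticGroup (Fin n) F))
    (x : HG (kap F n)) : theta ψ (act F n g x) = theta ψ x := by
  rw [theta_apply, theta_apply, act_fst, act_snd]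
  simp only [mulVec_eq_zero_sp]

theorem sum_symp (ψ : AddChar F ℂ) (hψ : ψ ≠ 1) (c : Fin n ⊕ Fin n → F) :
    ∑ w : Fin n ⊕ Fin n → F, ψ (Cfsg.sympForm n F c w) =
      if c = 0 then ((Fintype.card F ^ (2 * n) : ℕ) : ℂ) else 0 := by
  let Ψ : AddChar (Fin n ⊕ Fin n → F) ℂ :=
    { toFun := fun w => ψ (Cfsg.sympForm n F c w)
      map_zero_eq_one' := by
        have : Cfsg.sympForm n F c 0 = 0 := by
          have := sympForm_smul_right 0 c 0
          simpa using this
        rw [this, AddChar.map_zero_eq_one]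
      map_add_eq_mul' := by
        intro a b
        rw [sympForm_add_right, AddChar.map_add_eq_mul] }
  have h1 : ∑ w : Fin n ⊕ Fin n → F, ψ (Cfsg.sympForm n F c w) = ∑ w, Ψ w := rfl
  rw [h1, AddChar.sum_eq_ite]
  by_cases hc : c = 0
  · rw [if_pos hc, if_pos]
    · rw [Fintype.card_fun, Fintype.card_sum, Fintype.card_fin, two_mul]
    · ext w
      show ψ (Cfsg.sympForm n F c w) = 1
      rw [hc]
      have : Cfsg.sympForm n F 0 w = 0 := by
        rw [sympForm_swap]
        have := sympForm_smul_right 0 w 0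
        simpa using this
      rw [this, AddChar.map_zero_eq_one]
  · rw [if_neg hc, if_neg]
    intro h0
    obtain ⟨c', hc'⟩ := exists_symp_ne ψ hψ c hc
    apply hc'
    have h3 : Ψ c' = 1 := by
      rw [h0]
      simp
    exact h3

end Theta

end Cfsg.Agent.Lib.Helper44Weil3
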