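import Mathlib
import Cfsg.Agent.Lib.Helper44Weil3

set_option autoImplicit false

namespace Cfsg.Agent.Lib.Helper44Weil4

open Matrix Cfsg Cfsg.Agent.Lib.Helper4Char Cfsg.Agent.Lib.Helper4Char4
  Cfsg.Agent.Lib.Helper44Heis Cfsg.Agent.Lib.Helper44Weil1 Cfsg.Agent.Lib.Helper44Weil2
  Cfsg.Agent.Lib.Helper44Weil3 Cfsg.Agent.Lib.Helper19Cliff
  Cfsg.Agent.Lib.Helper99SympForm SemidirectProduct

variable (F : Type*) [Field F] (n : ℕ)

/-- the standard Lagrangian subspace -/
def Lag : Submodule F (Fin n ⊕ Fin n → F) :=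
  LinearMap.ker (LinearMap.funLeft F F (Sum.inr : Fin n → Fin n ⊕ Fin n))

variable {F n}

theorem mem_Lag (v : Fin n ⊕ Fin n → F) : v ∈ Lag F n ↔ ∀ i, v (Sum.inr i) = 0 := by
  unfold Lag
  rw [LinearMap.mem_ker]
  constructor
  · intro h i
    exact congrFun h i
  · intro h
    funext i
    exact h i

theorem finrank_Lag : Module.finrank F (Lag F n) = n := by
  have h1 := LinearMap.finrank_range_add_finrank_ker
    (LinearMap.funLeft F F (Sum.inr : Fin n → Fin n ⊕ Fin n))
  have h2 : LinearMap.range (LinearMap.funLeft F F (Sum.inr : Fin n → Fin n ⊕ Fin n)) = ⊤ :=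
    LinearMap.range_eq_top.mpr (LinearMap.funLeft_surjective_of_injective F F _ Sum.inr_injective)
  rw [h2, finrank_top, Module.finrank_fintype_fun_eq_card, Module.finrank_fintype_fun_eq_card,
    Fintype.card_sum, Fintype.card_fin] at h1
  unfold Lag
  omega

theorem symp_Lag (u v : Fin n ⊕ Fin n → F) (hu : u ∈ Lag F n) (hv : v ∈ Lag F n) :
    Cfsg.sympForm n F u v = 0 := by
  rw [mem_Lag] at hu hv
  unfold Cfsg.sympForm
  simp only [Matrix.J, Matrix.fromBlocks_mulVec, dotProduct, Fintype.sum_sum_type, Sum.elim_inl,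
    Sum.elim_inr, Matrix.zero_mulVec, Matrix.neg_mulVec, Matrix.one_mulVec,
    Pi.neg_apply, zero_add, add_zero, Function.comp, hu, hv]
  simp

section LemmaB

variable {R : Type*} [Group R] (j : R →* ↥(Matrix.symplecticGroup (Fin n) F))
  (hj : ∀ r v, v ∈ Lag F n → (j r).1 *ᵥ v ∈ Lag F n)

/-- the polarising subgroup -/
def Ksub : Subgroup (HG (kap F n) ⋊[(act F n).comp j] R) where
  carrier := {x | x.left.fst ∈ Lag F n}
  mul_mem' := by
    intro a b ha hb
    show (a * b).left.fst ∈ Lag F n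
    rw [SemidirectProduct.mul_left]
    exact (Lag F n).add_mem ha (hj _ _ hb)
  one_mem' := (Lag F n).zero_mem
  inv_mem' := by
    intro a ha
    show (a⁻¹).left.fst ∈ Lag F n
    rw [SemidirectProduct.inv_left]
    exact hj _ _ ((Lag F n).neg_mem ha)

theorem mem_Ksub (x : HG (kap F n) ⋊[(act F n).comp j] R) :
    x ∈ Ksub j hj ↔ x.left.fst ∈ Lag F n := Iff.rfl

/-- the central coordinate is a homomorphism on the polarising subgroup -/
def sndHom : Ksub j hj →* Multiplicative F where
  toFun x := Multiplicative.ofAdd x.1.left.snd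
  map_one' := rfl
  map_mul' a b := by
    show Multiplicative.ofAdd (a.1 * b.1).left.snd = _
    rw [SemidirectProduct.mul_left]
    show Multiplicative.ofAdd (a.1.left.snd + b.1.left.snd +
      kap F n a.1.left.fst ((j a.1.right).1 *ᵥ b.1.left.fst)) = _
    rw [kap_apply, symp_Lag _ _ a.2 (hj _ _ b.2), mul_zero, add_zero]
    rfl

/-- the linear character of the polarising subgroup -/
noncomputable def lamK (ψ : AddChar F ℂ) : Ksub j hj →* ℂˣ :=
  ψ.toMonoidHom.toHomUnits.comp (sndHom j hj)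

theorem lamK_apply (ψ : AddChar F ℂ) (x : Ksub j hj) :
    ((lamK j hj ψ x : ℂˣ) : ℂ) = ψ x.1.left.snd := rfl

/-- the underlying set of the polarising subgroup -/
def KsubEquiv : Ksub j hj ≃ (Lag F n × F) × R where
  toFun x := ((⟨x.1.left.fst, x.2⟩, x.1.left.snd), x.1.right)
  invFun p := ⟨⟨⟨p.1.1.1, p.1.2⟩, p.2⟩, p.1.1.2⟩
  left_inv _ := rfl
  right_inv _ := rfl

theorem conj_left (h : HG (kap F n)) (x : HG (kap F n) ⋊[(act F n).comp j] R) :
    (x⁻¹ * inl h * x).left = act F n (j x.right⁻¹) (x.left⁻¹ * h * x.left) := by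
  simp [mul_assoc]

theorem HG_conj_fst (h x : HG (kap F n)) : (x⁻¹ * h * x).fst = h.fst := by
  show -x.fst + h.fst + x.fst = h.fst
  abel

theorem HG_conj_snd (h2 : (2 : F) ≠ 0) (h x : HG (kap F n)) :
    (x⁻¹ * h * x).snd = h.snd + Cfsg.sympForm n F h.fst x.fst := by
  show ((-x.snd + kap F n x.fst x.fst) + h.snd + kap F n (-x.fst) h.fst) + x.snd +
    kap F n (-x.fst + h.fst) x.fst = _
  rw [← kap_sub h2]
  simp only [map_add, map_neg, AddMonoidHom.add_apply, AddMonoidHom.neg_apply]
  ring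

theorem card_Ksub [Fintype F] [Fintype R] :
    Nat.card (Ksub j hj) = Fintype.card F ^ n * Fintype.card F * Fintype.card R := by
  rw [Nat.card_congr (KsubEquiv j hj), Nat.card_prod, Nat.card_prod,
    Module.natCard_eq_pow_finrank (K := F) (V := Lag F n), finrank_Lag,
    Nat.card_eq_fintype_card, Nat.card_eq_fintype_card]

include hj in
theorem ext_parabolic [Fintype F] [DecidableEq F] [Finite R] (h2 : (2 : F) ≠ 0)
    (ψ : AddChar F ℂ) (hψ : ψ ≠ 1) :
    ∃ η : HG (kap F n) ⋊[(act F n).comp j] R → ℂ,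
      IsCharacter (HG (kap F n) ⋊[(act F n).comp j] R) η ∧ ∀ h, η (inl h) = theta ψ h := by
  classical
  let _ : Fintype R := Fintype.ofFinite R
  let _ : Fintype (HG (kap F n) ⋊[(act F n).comp j] R) :=
    Fintype.ofEquiv _ SemidirectProduct.equivProd.symm
  let _ : Fintype (Ksub j hj) := Fintype.ofFinite _
  refine ⟨ind (Ksub j hj).subtype (fun x => ((lamK j hj ψ x : ℂˣ) : ℂ)),
    ind_isCharacter _ (IsIrrCharacter.isCharacter
      (Cfsg.Agent.Lib.Helper82Linear.isIrrCharacter_of_hom _)), ?_⟩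
  intro h
  rw [ind_apply]
  have hin : ∀ y : HG (kap F n) ⋊[(act F n).comp j] R,
      ∑ k : Ksub j hj, (if (Ksub j hj).subtype k = y then ((lamK j hj ψ k : ℂˣ) : ℂ) else 0) =
        if y.left.fst ∈ Lag F n then ψ y.left.snd else 0 := by
    intro y
    by_cases hy : y.left.fst ∈ Lag F n
    · rw [if_pos hy, Finset.sum_eq_single (⟨y, (mem_Ksub j hj y).mpr hy⟩ : Ksub j hj)]
      · rw [if_pos (show (Ksub j hj).subtype ⟨y, (mem_Ksub j hj y).mpr hy⟩ = y from rfl)]
        rfl
      · intro b _ hb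
        rw [if_neg]
        intro e
        exact hb (Subtype.ext e)
      · intro hh
        exact absurd (Finset.mem_univ _) hh
    · rw [if_neg hy]
      apply Finset.sum_eq_zero
      intro k _
      rw [if_neg]
      rintro rfl
      exact hy k.2
  have hin' : ∀ x : HG (kap F n) ⋊[(act F n).comp j] R, (∑ k : Ksub j hj,
      @ite ℂ ((Ksub j hj).subtype k = x⁻¹ * inl h * x) (Classical.propDecidable _)
        ((lamK j hj ψ k : ℂˣ) : ℂ) 0) =
        if (x⁻¹ * inl h * x).left.fst ∈ Lag F n then ψ (x⁻¹ * inl h * x).left.snd else 0 := by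
    intro x
    rw [← hin]
    apply Finset.sum_congr rfl
    intro k _
    congr
  simp only [hin']
  have hpt : ∀ x : HG (kap F n) ⋊[(act F n).comp j] R,
      (if (x⁻¹ * inl h * x).left.fst ∈ Lag F n then ψ (x⁻¹ * inl h * x).left.snd else 0) =
        if h.fst ∈ Lag F n then ψ h.snd * ψ (Cfsg.sympForm n F h.fst x.left.fst) else 0 := by
    intro x
    rw [conj_left, act_fst, act_snd, HG_conj_fst, HG_conj_snd h2, AddChar.map_add_eq_mul]
    have : (j x.right⁻¹).1 *ᵥ h.fst ∈ Lag F n ↔ h.fst ∈ Lag F n := by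
      constructor
      · intro hm
        have := hj x.right _ hm
        rwa [Matrix.mulVec_mulVec, map_inv, coe_mul_inv_sp, Matrix.one_mulVec] at this
      · exact hj _ _
    simp only [this]
  simp only [hpt]
  rw [← Equiv.sum_comp (SemidirectProduct.equivProd (φ := (act F n).comp j)).symm,
    Fintype.sum_prod_type]
  have e1 : ∀ (y : HG (kap F n)) (r : R),
      ((SemidirectProduct.equivProd (φ := (act F n).comp j)).symm (y, r)).left = y := by
    intro y r
    rfl
  simp only [e1, Finset.sum_const, Finset.card_univ, nsmul_eq_mul]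
  rw [← Equiv.sum_comp (HG.equivProd (kap F n)).symm, Fintype.sum_prod_type]
  have e2 : ∀ (w : Fin n ⊕ Fin n → F) (b : F), ((HG.equivProd (kap F n)).symm (w, b)).fst = w := by
    intro w b
    rfl
  simp only [e2, Finset.sum_const, Finset.card_univ, nsmul_eq_mul]
  rw [card_Ksub, theta_apply]
  have hq : (Fintype.card F : ℂ) ≠ 0 := by exact_mod_cast Fintype.card_ne_zero
  have hR : (Fintype.card R : ℂ) ≠ 0 := by exact_mod_cast Fintype.card_ne_zero
  by_cases hL : h.fst ∈ Lag F n
  · simp only [if_pos hL]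
    rw [← Finset.mul_sum, ← Finset.mul_sum, ← Finset.mul_sum, sum_symp ψ hψ]
    by_cases h0 : h.fst = 0
    · rw [if_pos h0, if_pos h0]
      push_cast
      field_simp
      ring
    · rw [if_neg h0, if_neg h0]
      simp
  · have h0 : h.fst ≠ 0 := by
      intro h0
      apply hL
      rw [h0]
      exact (Lag F n).zero_mem
    simp [if_neg hL, if_neg h0]

end LemmaB

end Cfsg.Agent.Lib.Helper44Weil4
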