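import Mathlib
import Cfsg.Agent.Lib.Helper44Weil4
import Cfsg.Agent.S0775
import Cfsg.Agent.S0245

set_option autoImplicit false

namespace Cfsg.Agent.Lib.Helper44Weil5

open Matrix Cfsg Cfsg.Agent.Lib.Helper4Char Cfsg.Agent.Lib.Helper4Char4
  Cfsg.Agent.Lib.Helper44Heis Cfsg.Agent.Lib.Helper44Weil1 Cfsg.Agent.Lib.Helper44Weil2
  Cfsg.Agent.Lib.Helper44Weil3 Cfsg.Agent.Lib.Helper44Weil4
  Cfsg.Agent.Lib.Helper99SympForm SemidirectProduct

theorem tri_add (n : ℕ) : n * (n + 1) / 2 + n * (n - 1) / 2 = n ^ 2 := by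
  have h1 : 2 * (n * (n + 1) / 2) = n * (n + 1) :=
    Nat.two_mul_div_two_of_even (Nat.even_mul_succ_self n)
  have h2 : 2 * (n * (n - 1) / 2) = n * (n - 1) :=
    Nat.two_mul_div_two_of_even (Nat.even_mul_pred_self n)
  rcases n with _ | k
  · simp
  · simp only [Nat.add_sub_cancel] at h2 ⊢
    nlinarith

theorem pow_dvd_aux (q n : ℕ) : q ^ (n ^ 2) ∣ q ^ (n * (n + 1) / 2 + 2 * n * (n - n)) *
    (q ^ ((n - n) ^ 2) * ∏ i ∈ Finset.range (n - n), (q ^ (2 * (i + 1)) - 1)) *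
      ∏ i : Fin n, (q ^ n - q ^ (i : ℕ)) := by
  have h1 : ∏ i : Fin n, q ^ (i : ℕ) ∣ ∏ i : Fin n, (q ^ n - q ^ (i : ℕ)) :=
    Finset.prod_dvd_prod_of_dvd _ _ (fun i _ => Nat.dvd_sub (pow_dvd_pow q i.2.le) (dvd_refl _))
  have h2 : ∏ i : Fin n, q ^ (i : ℕ) = q ^ (n * (n - 1) / 2) := by
    rw [Finset.prod_pow_eq_pow_sum, Fin.sum_univ_eq_sum_range (fun i => i) n, Finset.sum_range_id]
  rw [h2] at h1
  simp only [Nat.sub_self, mul_zero, add_zero, Finset.range_zero, Finset.prod_empty, mul_one]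
  rw [← tri_add n, pow_add]
  simpa using Nat.mul_dvd_mul_left _ h1

theorem coprime_prod_aux (p f n : ℕ) (hf : 0 < f) (hp : p.Prime) :
    Nat.Coprime (∏ i ∈ Finset.range n, ((p ^ f) ^ (2 * (i + 1)) - 1)) p := by
  apply Nat.Coprime.prod_left
  intro i _
  have h1 : p ∣ (p ^ f) ^ (2 * (i + 1)) := by
    rw [← pow_mul]
    exact dvd_pow_self p (by positivity)
  have h2 : 0 < (p ^ f) ^ (2 * (i + 1)) := by
    have := hp.pos
    positivity
  rw [Nat.coprime_comm, Nat.Prime.coprime_iff_not_dvd hp]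
  intro h3
  have h4 : p ∣ 1 := by
    have := (Nat.dvd_sub h1 h3)
    rwa [Nat.sub_sub_self h2] at this
  exact hp.one_lt.ne' (Nat.dvd_one.mp h4)

variable {F : Type*} [Field F] {n : ℕ} [Fintype F] [DecidableEq F]

theorem theta_one (ψ : AddChar F ℂ) :
    theta ψ (1 : HG (kap F n)) = ((Fintype.card F ^ n : ℕ) : ℂ) := by
  rw [theta_apply, if_pos (show (1 : HG (kap F n)).fst = 0 from rfl)]
  show _ * ψ 0 = _
  rw [AddChar.map_zero_eq_one, mul_one]

theorem weil_ext (h2 : (2 : F) ≠ 0) (ψ : AddChar F ℂ) (hψ : ψ ≠ 1) :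
    ∃ χ : HG (kap F n) ⋊[act F n] ↥(Matrix.symplecticGroup (Fin n) F) → ℂ,
      IsIrrCharacter (HG (kap F n) ⋊[act F n] ↥(Matrix.symplecticGroup (Fin n) F)) χ ∧
        ∀ h, χ (inl h) = theta ψ h := by
  classical
  obtain ⟨p, hchar⟩ := CharP.exists F
  obtain ⟨f, hp, hq⟩ := FiniteField.card F p
  apply ext_of_sylow (act F n) (theta_irr h2 ψ hψ) (theta_inv ψ)
  intro r hr
  have : Fact r.Prime := ⟨hr⟩
  by_cases hrp : r = p
  · subst hrp
    set PS := Cfsg.stabilizing (Cfsg.spToMat n F) (Lag F n : Set (Fin n ⊕ Fin n → F)) with hPS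
    have hcardPS := Cfsg.Agent.S0775.result (F := F) rfl n n le_rfl (Lag F n) finrank_Lag
      (fun u hu v hv => symp_Lag u v hu hv)
    have hcardG := Cfsg.Agent.S0245.result (F := F) rfl n
    have hdiv : Fintype.card F ^ (n ^ 2) ∣ Nat.card PS := by
      rw [hPS, hcardPS]
      exact pow_dvd_aux _ _
    let Q : Sylow r PS := default
    have hQ : Nat.card Q = r ^ ((Nat.card PS).factorization r) := Sylow.card_eq_multiplicity Q
    have hdivQ : Fintype.card F ^ (n ^ 2) ∣ Nat.card Q := by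
      rw [hQ]
      rw [hq, ← pow_mul] at hdiv ⊢
      exact pow_dvd_pow r ((Nat.Prime.pow_dvd_iff_le_factorization hr Nat.card_pos.ne').mp hdiv)
    have hcardR : Nat.card ((Q : Subgroup PS).map PS.subtype) = Nat.card Q :=
      Subgroup.card_map_of_injective PS.subtype_injective
    refine ⟨(Q : Subgroup PS).map PS.subtype, ?_, ⟨_, hcardR.trans hQ⟩, ?_⟩
    · obtain ⟨t, ht⟩ := hdivQ
      have h3 := Subgroup.index_mul_card ((Q : Subgroup PS).map PS.subtype)
      rw [hcardR, ht, hcardG] at h3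
      have hpos : 0 < Fintype.card F ^ (n ^ 2) := pow_pos Fintype.card_pos _
      have h4 : ((Q : Subgroup PS).map PS.subtype).index * t =
          ∏ i ∈ Finset.range n, (Fintype.card F ^ (2 * (i + 1)) - 1) := by
        apply Nat.eq_of_mul_eq_mul_left hpos
        rw [← h3]
        ring
      have h5 := coprime_prod_aux r f n f.pos hr
      rw [← hq, ← h4] at h5
      exact Nat.Coprime.coprime_mul_right h5
    · apply ext_parabolic _ _ h2 ψ hψ
      intro x v hv
      obtain ⟨y, -, hy⟩ := Subgroup.mem_map.mp x.2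
      have h3 := (y.2 v).mp hv
      have h4 : (y : ↥(Matrix.symplecticGroup (Fin n) F)) = x.1 := hy
      rw [h4] at h3
      exact h3
  · let Q : Sylow r ↥(Matrix.symplecticGroup (Fin n) F) := default
    obtain ⟨k, hk⟩ := IsPGroup.iff_card.mp Q.2
    refine ⟨Q, ?_, ⟨k, hk⟩, ?_⟩
    · exact (Nat.Coprime.symm ((Nat.Prime.coprime_iff_not_dvd hr).mpr Q.not_dvd_index))
    · apply ext_of_coprime ((act F n).comp (Q : Subgroup _).subtype) (theta_irr h2 ψ hψ)
        (fun g h => theta_inv ψ _ h) _ (theta_one ψ)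
      rw [hk, Nat.card_eq_fintype_card, HG.card, Fintype.card_fun, hq]
      apply Nat.Coprime.pow_left
      have h3 : Nat.Coprime r p := (Nat.coprime_primes hr hp).mpr hrp
      apply Nat.Coprime.mul_right
      · apply Nat.Coprime.mul_right
        · exact Nat.Coprime.pow_right _ (Nat.Coprime.pow_right _ h3)
        · exact Nat.Coprime.pow_right _ h3
      · exact Nat.Coprime.pow_right _ (Nat.Coprime.pow_right _ h3)

end Cfsg.Agent.Lib.Helper44Weil5
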