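import Mathlib
import Cfsg.Agent.Lib.Helper44Weil5
import Cfsg.Agent.Lib.Helper44SpSiegel

set_option autoImplicit false

namespace Cfsg.Agent.Lib.Helper44Weil6

open Matrix Cfsg Cfsg.Agent.Lib.Helper4Char Cfsg.Agent.Lib.Helper4Char4
  Cfsg.Agent.Lib.Helper44Heis Cfsg.Agent.Lib.Helper44Weil1 Cfsg.Agent.Lib.Helper44Weil2
  Cfsg.Agent.Lib.Helper44Weil3 Cfsg.Agent.Lib.Helper44Weil4 Cfsg.Agent.Lib.Helper44Weil5
  Cfsg.Agent.Lib.Helper99SympForm SemidirectProduct

section General

variable {H G : Type*} [Group H] [Group G] (φ : G →* MulAut H)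

/-- the homomorphism from the group of signs given by an element of order at most two -/
def sgnHom (c : G) (hc : c * c = 1) : ℤˣ →* G where
  toFun ε := if ε = 1 then 1 else c
  map_one' := if_pos rfl
  map_mul' a b := by
    have hne : (-1 : ℤˣ) ≠ 1 := by decide
    rcases Int.units_eq_one_or a with rfl | rfl <;>
      rcases Int.units_eq_one_or b with rfl | rfl <;> simp [hc, hne]

variable [Finite H] [Finite G]

theorem norm_sum_neg [Fintype H] {χ : H ⋊[φ] G → ℂ} (hχ : IsCharacter (H ⋊[φ] G) χ) {θ : H → ℂ}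
    (hθ : IsIrrCharacter H θ) (hres : ∀ h, χ (inl h) = θ h)
    {R : Type*} [Group R] [Fintype R] (j : R →* G) (c : G) (hc : c * c = 1)
    (hcomm : ∀ g, g * c = c * g) :
    ∑ r : R, ∑ h : H, χ (inl h * inr (j r * c)) * (starRingEnd ℂ) (χ (inl h * inr (j r * c))) =
      (Fintype.card H : ℂ) * (Fintype.card R : ℂ) := by
  have hne : (-1 : ℤˣ) ≠ 1 := by decide
  have h1 := norm_sum φ hχ hθ hres j
  have h2 := norm_sum φ hχ hθ hres (MonoidHom.noncommCoprod j (sgnHom c hc) (by
    intro m ε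
    show j m * (if ε = 1 then 1 else c) = (if ε = 1 then 1 else c) * j m
    split_ifs
    · simp
    · exact hcomm _))
  rw [Fintype.sum_prod_type] at h2
  simp only [MonoidHom.noncommCoprod_apply, UnitsInt.univ] at h2
  have h3 : ∀ r : R, ∑ ε ∈ ({1, -1} : Finset ℤˣ), ∑ h : H,
      χ (inl h * inr (j r * sgnHom c hc ε)) * (starRingEnd ℂ) (χ (inl h * inr (j r * sgnHom c hc ε)))
      = ∑ h : H, χ (inl h * inr (j r)) * (starRingEnd ℂ) (χ (inl h * inr (j r))) +
        ∑ h : H, χ (inl h * inr (j r * c)) * (starRingEnd ℂ) (χ (inl h * inr (j r * c))) := by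
    intro r
    rw [Finset.sum_pair hne.symm]
    have e1 : sgnHom c hc 1 = 1 := map_one _
    have e2 : sgnHom c hc (-1) = c := by
      show (if (-1 : ℤˣ) = 1 then 1 else c) = c
      rw [if_neg hne]
    rw [e1, e2, mul_one]
  simp only [h3, Finset.sum_add_distrib] at h2
  rw [h1, Fintype.card_prod, Fintype.card_units_int] at h2
  push_cast at h2
  linear_combination h2

end General

section Concrete

variable {F : Type*} [Field F] {n : ℕ}

theorem central_inl (b : F)
    (x : HG (kap F n) ⋊[act F n] ↥(Matrix.symplecticGroup (Fin n) F)) :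
    x * inl (zH (kap F n) (Multiplicative.ofAdd b)) =
      inl (zH (kap F n) (Multiplicative.ofAdd b)) * x := by
  apply SemidirectProduct.ext
  · rw [mul_left, mul_left, left_inl, right_inl, map_one, MulAut.one_apply]
    apply HG.ext
    · show x.left.fst + x.right.1 *ᵥ 0 = 0 + x.left.fst
      simp
    · show x.left.snd + b + kap F n x.left.fst (x.right.1 *ᵥ 0) =
        b + x.left.snd + kap F n 0 x.left.fst
      simp [add_comm]
  · simp

variable [Fintype F] [DecidableEq F]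

theorem norm_coset {χ : HG (kap F n) ⋊[act F n] ↥(Matrix.symplecticGroup (Fin n) F) → ℂ}
    (hχ : IsIrrCharacter (HG (kap F n) ⋊[act F n] ↥(Matrix.symplecticGroup (Fin n) F)) χ)
    (g : ↥(Matrix.symplecticGroup (Fin n) F)) (B : Matrix (Fin n ⊕ Fin n) (Fin n ⊕ Fin n) F)
    (hB : (1 - g.1) * B = 1) (h : HG (kap F n)) :
    χ (inl h * inr g) * (starRingEnd ℂ) (χ (inl h * inr g)) =
      χ (inr g) * (starRingEnd ℂ) (χ (inr g)) := by
  classical
  let _ : Fintype (HG (kap F n) ⋊[act F n] ↥(Matrix.symplecticGroup (Fin n) F)) :=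
    Fintype.ofFinite _
  set w := B *ᵥ h.fst with hwdef
  have hw : w - g.1 *ᵥ w = h.fst := by
    have : (1 - g.1) *ᵥ w = h.fst := by
      rw [hwdef, Matrix.mulVec_mulVec, hB, Matrix.one_mulVec]
    rwa [Matrix.sub_mulVec, Matrix.one_mulVec] at this
  let y : HG (kap F n) := ⟨w, 0⟩
  obtain ⟨b, hb⟩ : ∃ b, b = h.snd - (y * act F n g y⁻¹).snd := ⟨_, rfl⟩
  have e1 : ∀ z : HG (kap F n), (inl z * (inl y * inr g * (inl y)⁻¹) :
      HG (kap F n) ⋊[act F n] ↥(Matrix.symplecticGroup (Fin n) F)).left =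
      z * (y * act F n g y⁻¹) := by
    intro z
    simp
  have e3 : ∀ z : HG (kap F n), (inl z * (inl y * inr g * (inl y)⁻¹) :
      HG (kap F n) ⋊[act F n] ↥(Matrix.symplecticGroup (Fin n) F)).right = g := by
    intro z
    simp
  have hx : (inl h * inr g : HG (kap F n) ⋊[act F n] ↥(Matrix.symplecticGroup (Fin n) F)) =
      inl (zH (kap F n) (Multiplicative.ofAdd b)) * (inl y * inr g * (inl y)⁻¹) := by
    apply SemidirectProduct.ext
    · have e2 : (inl h * inr g :
          HG (kap F n) ⋊[act F n] ↥(Matrix.symplecticGroup (Fin n) F)).left = h := by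
        simp
      rw [e1, e2]
      apply HG.ext
      · show h.fst = 0 + (w + g.1 *ᵥ (-w))
        rw [Matrix.mulVec_neg, zero_add, ← sub_eq_add_neg, hw]
      · show h.snd = b + (y * act F n g y⁻¹).snd +
          kap F n 0 (y * act F n g y⁻¹).fst
        rw [hb]
        simp
    · rw [e3]
      simp
  rw [hx, Cfsg.Agent.Lib.Helper44Ab.irr_central_mul_norm hχ _ (central_inl _),
    IsIrrCharacter.isClassFunction hχ]

omit [Fintype F] [DecidableEq F] in
/-- an explicit inverse of `1 + U` for `U` with `(U - 1) ^ 2 = 0` -/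
theorem one_add_unip_inv (h2 : (2 : F) ≠ 0) (U : Matrix (Fin n ⊕ Fin n) (Fin n ⊕ Fin n) F)
    (hU : (U - 1) * (U - 1) = 0) :
    (1 + U) * ((2⁻¹ : F) • (1 : Matrix (Fin n ⊕ Fin n) (Fin n ⊕ Fin n) F) -
      ((2⁻¹ : F) * 2⁻¹) • (U - 1)) = 1 := by
  obtain ⟨N, hN⟩ : ∃ N, N = U - 1 := ⟨_, rfl⟩
  have hU' : U = 1 + N := by rw [hN]; abel
  rw [← hN] at hU ⊢
  rw [hU']
  obtain ⟨c, hc⟩ : ∃ c : F, c = 2⁻¹ := ⟨_, rfl⟩
  have hc2 : c + c = 1 := by
    rw [hc]
    field_simp
    norm_num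
  rw [← hc]
  simp only [add_mul, mul_sub, one_mul, Matrix.mul_smul, mul_one, hU, smul_zero, sub_zero]
  have e1 : c • (1 : Matrix (Fin n ⊕ Fin n) (Fin n ⊕ Fin n) F) + c • 1 = 1 := by
    rw [← add_smul, hc2, one_smul]
  have e2 : (c * c) • N + (c * c) • N = c • N := by
    rw [← add_smul, ← mul_add, hc2, mul_one]
  calc c • (1 : Matrix (Fin n ⊕ Fin n) (Fin n ⊕ Fin n) F) + (c • 1 + c • N) -
        ((c * c) • N + ((c * c) • N + 0))
      = (c • (1 : Matrix (Fin n ⊕ Fin n) (Fin n ⊕ Fin n) F) + c • 1) -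
        ((c * c) • N + (c * c) • N) + c • N := by abel
    _ = 1 := by rw [e1, e2]; abel

omit [Fintype F] [DecidableEq F] in
variable (F n) in
/-- minus the identity -/
def negOne : ↥(Matrix.symplecticGroup (Fin n) F) :=
  ⟨-1, SymplecticGroup.neg_mem (one_mem _)⟩

omit [Fintype F] [DecidableEq F] in
theorem negOne_mul_self : negOne F n * negOne F n = 1 := by
  apply Subtype.ext
  show (-1 : Matrix (Fin n ⊕ Fin n) (Fin n ⊕ Fin n) F) * (-1) = 1
  simp

omit [Fintype F] [DecidableEq F] in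
theorem negOne_comm (g : ↥(Matrix.symplecticGroup (Fin n) F)) :
    g * negOne F n = negOne F n * g := by
  apply Subtype.ext
  show g.1 * (-1 : Matrix (Fin n ⊕ Fin n) (Fin n ⊕ Fin n) F) = (-1) * g.1
  simp

omit [Fintype F] [DecidableEq F] in
theorem exists_inv_neg_unip (h2 : (2 : F) ≠ 0) (T : Matrix (Fin n) (Fin n) F) :
    ∃ B, (1 - (Cfsg.Agent.Lib.Helper44SpSiegel.uSp (Multiplicative.ofAdd T) * negOne F n).1) * B
      = 1 := by
  refine ⟨((2⁻¹ : F) • (1 : Matrix (Fin n ⊕ Fin n) (Fin n ⊕ Fin n) F) -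
      ((2⁻¹ : F) * 2⁻¹) • ((Cfsg.Agent.Lib.Helper44SpSiegel.uSp (Multiplicative.ofAdd T)).1 - 1)), ?_⟩
  have e : (1 - (Cfsg.Agent.Lib.Helper44SpSiegel.uSp (Multiplicative.ofAdd T) * negOne F n).1) =
      1 + (Cfsg.Agent.Lib.Helper44SpSiegel.uSp (Multiplicative.ofAdd T)).1 := by
    show 1 - (Cfsg.Agent.Lib.Helper44SpSiegel.uSp (Multiplicative.ofAdd T)).1 *
      (-1 : Matrix (Fin n ⊕ Fin n) (Fin n ⊕ Fin n) F) = _
    simp
  rw [e]
  apply one_add_unip_inv h2
  rw [Cfsg.Agent.Lib.Helper44SpSiegel.uSp_coe]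
  have : fromBlocks 1 (T + Tᵀ) 0 1 - (1 : Matrix (Fin n ⊕ Fin n) (Fin n ⊕ Fin n) F) =
      fromBlocks 0 (T + Tᵀ) 0 0 := by
    rw [← fromBlocks_one, sub_eq_add_neg, fromBlocks_neg, fromBlocks_add]
    simp
  rw [this, fromBlocks_multiply]
  simp

/-- the Weil character: existence with the numerical properties used later -/
theorem exists_weil (h2 : (2 : F) ≠ 0) :
    ∃ ω : ↥(Matrix.symplecticGroup (Fin n) F) → ℂ,
      IsCharacter ↥(Matrix.symplecticGroup (Fin n) F) ω ∧
      ω 1 = ((Fintype.card F ^ n : ℕ) : ℂ) ∧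
      ω (negOne F n) * (starRingEnd ℂ) (ω (negOne F n)) = 1 ∧
      ∑ T : Matrix (Fin n) (Fin n) F,
        ω (Cfsg.Agent.Lib.Helper44SpSiegel.uSp (Multiplicative.ofAdd T) * negOne F n) *
        (starRingEnd ℂ)
          (ω (Cfsg.Agent.Lib.Helper44SpSiegel.uSp (Multiplicative.ofAdd T) * negOne F n)) =
        (Fintype.card (Matrix (Fin n) (Fin n) F) : ℂ) := by
  classical
  have hψ := AddChar.FiniteField.primitiveChar_to_Complex_isPrimitive F
  set ψ := AddChar.FiniteField.primitiveChar_to_Complex F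
  have hψ1 : ψ ≠ 1 := by
    intro h
    have := hψ (a := 1) one_ne_zero
    apply this
    rw [h]
    ext x
    simp
  obtain ⟨χ, hχ, hres⟩ := weil_ext (n := n) h2 ψ hψ1
  have hθ := theta_irr (n := n) h2 ψ hψ1
  have hH : (Fintype.card (HG (kap F n)) : ℂ) ≠ 0 := by exact_mod_cast Fintype.card_ne_zero
  refine ⟨fun g => χ (inr g), IsCharacter.comp inr (IsIrrCharacter.isCharacter hχ), ?_, ?_, ?_⟩
  · show χ (inr 1) = _
    rw [map_one, ← theta_one ψ, ← hres, map_one]
  · have h3 := norm_sum_neg (act F n) (IsIrrCharacter.isCharacter hχ) hθ hres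
      (1 : Unit →* ↥(Matrix.symplecticGroup (Fin n) F)) (negOne F n) negOne_mul_self negOne_comm
    obtain ⟨B, hB⟩ := exists_inv_neg_unip h2 (0 : Matrix (Fin n) (Fin n) F)
    have e0 : Cfsg.Agent.Lib.Helper44SpSiegel.uSp (Multiplicative.ofAdd
        (0 : Matrix (Fin n) (Fin n) F)) = 1 := map_one _
    rw [e0, one_mul] at hB
    simp only [Finset.univ_unique, MonoidHom.one_apply, one_mul,
      norm_coset hχ _ B hB, Finset.sum_const, Finset.card_univ, nsmul_eq_mul,
      Fintype.card_unique, Nat.cast_one, mul_one, Finset.card_singleton] at h3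
    exact mul_left_cancel₀ hH (by rw [mul_one]; exact h3)
  · have h3 := norm_sum_neg (act F n) (IsIrrCharacter.isCharacter hχ) hθ hres
      Cfsg.Agent.Lib.Helper44SpSiegel.uSp (negOne F n) negOne_mul_self negOne_comm
    have h4 : ∀ T : Multiplicative (Matrix (Fin n) (Fin n) F), ∑ h : HG (kap F n),
        χ (inl h * inr (Cfsg.Agent.Lib.Helper44SpSiegel.uSp T * negOne F n)) * (starRingEnd ℂ)
          (χ (inl h * inr (Cfsg.Agent.Lib.Helper44SpSiegel.uSp T * negOne F n))) =
        (Fintype.card (HG (kap F n)) : ℂ) *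
          (χ (inr (Cfsg.Agent.Lib.Helper44SpSiegel.uSp T * negOne F n)) * (starRingEnd ℂ)
          (χ (inr (Cfsg.Agent.Lib.Helper44SpSiegel.uSp T * negOne F n)))) := by
      intro T
      obtain ⟨B, hB⟩ := exists_inv_neg_unip h2 (Multiplicative.toAdd T)
      rw [ofAdd_toAdd] at hB
      simp only [norm_coset hχ _ B hB, Finset.sum_const, Finset.card_univ, nsmul_eq_mul]
    simp only [h4] at h3
    rw [← Finset.mul_sum] at h3
    have h5 := mul_left_cancel₀ hH h3
    rw [← Equiv.sum_comp Multiplicative.ofAdd] at h5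
    convert h5 using 1
    rw [Fintype.card_multiplicative]

end Concrete

end Cfsg.Agent.Lib.Helper44Weil6
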