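import Mathlib
import Cfsg.Agent.Lib.Helper44Wt
import Cfsg.Agent.Lib.Helper44Ab
import Cfsg.Agent.Lib.Helper4Char2
import Cfsg.Agent.Lib.Helper82Linear

set_option autoImplicit false

namespace Cfsg.Agent.Lib.Helper44Weil7

open Cfsg Cfsg.Agent.Lib.Helper4Char Cfsg.Agent.Lib.Helper4Char2 Cfsg.Agent.Lib.Helper4Char4
  Cfsg.Agent.Lib.Helper44Wt Cfsg.Agent.Lib.Helper44Ab Cfsg.Agent.Lib.Helper82Linear

variable {A : Type*} [AddCommGroup A] [Fintype A] {G : Type*} [Group G] [Fintype G]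

/-- Cauchy-Schwarz in the form used below -/
theorem norm_sum_sq_le (x : A → ℂ) (hx : ∑ T : A, x T * (starRingEnd ℂ) (x T) = (Fintype.card A : ℂ)) :
    ‖∑ T : A, x T‖ ≤ (Fintype.card A : ℝ) := by
  have h1 : ‖∑ T : A, x T‖ ≤ ∑ T : A, ‖x T‖ := norm_sum_le _ _
  have h2 : (∑ T : A, ‖x T‖) ^ 2 ≤ (Fintype.card A : ℝ) * ∑ T : A, ‖x T‖ ^ 2 := by
    have := sq_sum_le_card_mul_sum_sq (s := (Finset.univ : Finset A)) (f := fun T => ‖x T‖)
    simpa using this
  have h3 : ∑ T : A, ‖x T‖ ^ 2 = (Fintype.card A : ℝ) := by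
    have : ((∑ T : A, ‖x T‖ ^ 2 : ℝ) : ℂ) = (Fintype.card A : ℂ) := by
      rw [← hx]
      push_cast
      apply Finset.sum_congr rfl
      intro T _
      rw [Complex.mul_conj, Complex.normSq_eq_norm_sq]
      push_cast
      rfl
    exact_mod_cast this
  rw [h3] at h2
  have h4 : 0 ≤ ∑ T : A, ‖x T‖ := Finset.sum_nonneg (fun _ _ => norm_nonneg _)
  have h5 : ∑ T : A, ‖x T‖ ≤ (Fintype.card A : ℝ) := by
    have h6 : (0 : ℝ) ≤ (Fintype.card A : ℝ) := Nat.cast_nonneg _
    nlinarith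
  exact h1.trans h5

/-- the abstract form of the final counting argument for the Weil character -/
theorem final_abs (c : G) (hc2 : c * c = 1) (hcc : ∀ g, g * c = c * g)
    (u : Multiplicative A →* G) (m : ℕ) (hm : 3 ≤ m)
    (ω : G → ℂ) (hω : IsCharacter G ω) (h1 : ω 1 = ((2 * m + 1 : ℕ) : ℂ))
    (hneg : ω c * (starRingEnd ℂ) (ω c) = 1)
    (hsum : ∑ T : A, ω (u (Multiplicative.ofAdd T) * c) *
      (starRingEnd ℂ) (ω (u (Multiplicative.ofAdd T) * c)) = (Fintype.card A : ℂ))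
    (hbound : ∀ χ : IrrCharacter G, χ ≠ irrOne G → ∀ d z : ℕ, (χ : G → ℂ) 1 = d →
      wt u (χ : G → ℂ) 0 = z → z + m ≤ d) :
    ∃ χ : IrrCharacter G, (χ : G → ℂ) 1 = m := by
  classical
  by_contra hcon
  push Not at hcon
  obtain ⟨a, ha, -⟩ := IsCharacter.eq_sum_nat hω
  choose d hdpos hd using fun χ : IrrCharacter G => IsIrrCharacter.exists_degree χ.2
  choose z hz using fun χ : IrrCharacter G => wt_nat u χ (IsIrrCharacter.isCharacter χ.2) 0
  have hdb : ∀ χ, χ ≠ irrOne G → m + 1 ≤ d χ := by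
    intro χ hχ
    have h1 := hbound χ hχ (d χ) (z χ) (hd χ) (hz χ)
    have h2 : d χ ≠ m := fun h => hcon χ (by rw [hd, h])
    omega
  have hval : ∀ g, ω g = ∑ χ : IrrCharacter G, (a χ : ℂ) * (χ : G → ℂ) g := by
    intro g
    rw [ha]
    simp [Finset.sum_apply]
  have hsumdeg : ∑ χ, a χ * d χ = 2 * m + 1 := by
    have := hval 1
    rw [h1] at this
    simp only [hd] at this
    exact_mod_cast this.symm
  by_cases hall : ∀ χ, χ ≠ irrOne G → a χ = 0
  · -- multiple of the trivial character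
    have h2 : ∀ g, ω g = (a (irrOne G) : ℂ) := by
      intro g
      rw [hval, Finset.sum_eq_single (irrOne G)]
      · show _ * (1 : ℂ) = _
        rw [mul_one]
      · intro χ _ hχ
        rw [hall χ hχ]
        simp
      · intro h
        exact absurd (Finset.mem_univ _) h
    have h3 : (a (irrOne G) : ℂ) = ((2 * m + 1 : ℕ) : ℂ) := by rw [← h2 1, h1]
    rw [h2 c, h3, Complex.conj_natCast] at hneg
    have h4 : (2 * m + 1) * (2 * m + 1) = 1 := by exact_mod_cast hneg
    nlinarith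
  · push Not at hall
    obtain ⟨χ₁, hχ₁, ha₁⟩ := hall
    have hd₁ := hdb χ₁ hχ₁
    have hothers : ∀ χ, χ ≠ irrOne G → χ ≠ χ₁ → a χ = 0 := by
      intro χ hχ hne
      by_contra h0
      have h2 : ∑ x ∈ ({χ₁, χ} : Finset (IrrCharacter G)), a x * d x ≤ ∑ x, a x * d x :=
        Finset.sum_le_sum_of_subset (Finset.subset_univ _)
      rw [Finset.sum_pair hne.symm, hsumdeg] at h2
      have h3 := hdb χ hχ
      have h4 : 1 ≤ a χ := Nat.one_le_iff_ne_zero.mpr h0
      have h5 : 1 ≤ a χ₁ := Nat.one_le_iff_ne_zero.mpr ha₁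
      nlinarith
    have ha1 : a χ₁ = 1 := by
      have h2 : a χ₁ * d χ₁ ≤ ∑ x, a x * d x :=
        Finset.single_le_sum (f := fun x => a x * d x) (fun _ _ => Nat.zero_le _)
          (Finset.mem_univ χ₁)
      rw [hsumdeg] at h2
      have h5 : 1 ≤ a χ₁ := Nat.one_le_iff_ne_zero.mpr ha₁
      by_contra h6
      have h7 : 2 ≤ a χ₁ := by omega
      nlinarith
    have h2 : ∀ g, ω g = (a (irrOne G) : ℂ) + (χ₁ : G → ℂ) g := by
      intro g
      rw [hval, Finset.sum_eq_add (irrOne G) χ₁ hχ₁.symm]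
      · rw [ha1]
        show _ * (1 : ℂ) + _ = _
        simp
      · intro χ _ hχ
        rw [hothers χ hχ.1 hχ.2]
        simp
      · intro h
        exact absurd (Finset.mem_univ _) h
      · intro h
        exact absurd (Finset.mem_univ _) h
    set t := a (irrOne G) with ht
    have h3 : t + d χ₁ = 2 * m + 1 := by
      have := h2 1
      rw [h1, hd] at this
      exact_mod_cast this.symm
    have hd0 : ((d χ₁ : ℕ) : ℂ) ≠ 0 := by exact_mod_cast (hdpos χ₁).ne'
    have h4 : ∀ g, (χ₁ : G → ℂ) (c * g) = (χ₁ : G → ℂ) c * (χ₁ : G → ℂ) g / (d χ₁ : ℂ) := by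
      intro g
      rw [irr_central_mul χ₁.2 c hcc g, hd]
    have h5 : (χ₁ : G → ℂ) c * (χ₁ : G → ℂ) c = (d χ₁ : ℂ) * (d χ₁ : ℂ) := by
      have := h4 c
      rw [hc2, hd] at this
      field_simp at this
      linear_combination -this
    have h6 : (χ₁ : G → ℂ) c = (d χ₁ : ℂ) ∨ (χ₁ : G → ℂ) c = -(d χ₁ : ℂ) :=
      mul_self_eq_mul_self_iff.mp h5
    rcases h6 with h6 | h6
    · rw [h2 c, h6] at hneg
      have h7 : ((t : ℂ) + (d χ₁ : ℂ)) = ((2 * m + 1 : ℕ) : ℂ) := by exact_mod_cast h3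
      rw [h7, Complex.conj_natCast] at hneg
      have h8 : (2 * m + 1) * (2 * m + 1) = 1 := by exact_mod_cast hneg
      nlinarith
    · rw [h2 c, h6] at hneg
      have h7 : ((t : ℂ) + -(d χ₁ : ℂ)) = (((t : ℤ) - (d χ₁ : ℤ) : ℤ) : ℂ) := by
        push_cast
        ring
      rw [h7, map_intCast] at hneg
      have h8 : ((t : ℤ) - (d χ₁ : ℤ)) * ((t : ℤ) - (d χ₁ : ℤ)) = 1 := by exact_mod_cast hneg
      have h9 : d χ₁ = m + 1 := by
        have e1 : (t : ℤ) + (d χ₁ : ℤ) = 2 * m + 1 := by exact_mod_cast h3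
        have e2 : (m : ℤ) + 1 ≤ (d χ₁ : ℤ) := by exact_mod_cast hd₁
        have e3 : (d χ₁ : ℤ) - t = 1 := by
          have e4 : 0 < (d χ₁ : ℤ) - t := by linarith
          nlinarith
        have e5 : (d χ₁ : ℤ) = m + 1 := by linarith
        exact_mod_cast e5
      have h10 : t = m := by omega
      have hz1 : z χ₁ ≤ 1 := by
        have := hbound χ₁ hχ₁ (d χ₁) (z χ₁) (hd χ₁) (hz χ₁)
        omega
      have h11 : ∀ T : A, ω (u (Multiplicative.ofAdd T) * c) =
          (m : ℂ) - (χ₁ : G → ℂ) (u (Multiplicative.ofAdd T)) := by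
        intro T
        rw [hcc, h2, h4, h6, h10]
        field_simp
        ring
      have h12 : ∑ T : A, ω (u (Multiplicative.ofAdd T) * c) =
          (Fintype.card A : ℂ) * ((m : ℂ) - (z χ₁ : ℂ)) := by
        have hA : (Fintype.card A : ℂ) ≠ 0 := by exact_mod_cast Fintype.card_ne_zero
        have e1 := hz χ₁
        unfold wt at e1
        simp only [AddChar.zero_apply, map_one, mul_one] at e1
        simp only [h11, Finset.sum_sub_distrib, Finset.sum_const, Finset.card_univ, nsmul_eq_mul]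
        rw [← e1]
        field_simp
      have h13 := norm_sum_sq_le _ hsum
      rw [h12, norm_mul, Complex.norm_natCast] at h13
      have h14 : ((m : ℂ) - (z χ₁ : ℂ)) = ((m - z χ₁ : ℕ) : ℂ) := by
        rw [Nat.cast_sub (by omega)]
      rw [h14, Complex.norm_natCast] at h13
      have hA : (0 : ℝ) < (Fintype.card A : ℝ) := by exact_mod_cast Fintype.card_pos
      have h15 : ((m - z χ₁ : ℕ) : ℝ) ≤ 1 := by
        by_contra h16
        push Not at h16
        nlinarith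
      have h16 : m - z χ₁ ≤ 1 := by exact_mod_cast h15
      omega

end Cfsg.Agent.Lib.Helper44Weil7
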