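import Mathlib
import Cfsg.Agent.Lib.Helper45OspDefs

/-!
PROJECT 3589 (OSP), part 2: S3590.  Vocabulary.
-/

set_option autoImplicit false

namespace Cfsg.Agent.Lib.Helper45OspDefs2

open Module Cfsg.Agent.Lib.Helper45Form Cfsg.Agent.Lib.Helper45OspDefs

universe u w

/-- dimension of the space of fixed vectors -/
noncomputable def fx {F : Type u} [Field F] {W : Type w} [AddCommGroup W] [Module F W]
    (h : End F W) : ℕ := finrank F (LinearMap.ker (h - 1))

/-- the norm operator `1 + h + ... + h^(n-1)` -/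
noncomputable def Nm {F : Type u} [Field F] {W : Type w} [AddCommGroup W] [Module F W]
    (h : End F W) (n : ℕ) : End F W := ∑ i ∈ Finset.range n, h ^ i

/-- There is a nondegenerate alternating space of dimension `2m` over `F` with an isometry of order
exactly `M`. -/
def SpModel (F : Type u) [Field F] (M m : ℕ) : Prop :=
  ∃ (W : Type w) (_ : AddCommGroup W) (_ : Module F W) (_ : Module.Finite F W)
    (β : W →ₗ[F] W →ₗ[F] F) (h : End F W),
    (∀ v, β v v = 0) ∧ (∀ u, (∀ v, β u v = 0) → u = 0) ∧ finrank F W = 2 * m ∧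
      (∀ x z, β (h x) (h z) = β x z) ∧ ∀ j : ℕ, h ^ j = 1 ↔ M ∣ j

/-- There is a quadratic space of dimension `2m` and type `ε` with an isometry `w` of order exactly
`2^k`, with `f`-dimensional fixed space and `1 + w + ... + w^(2^k-1) ≠ 0`. -/
def UMod (F : Type u) [Field F] [Fintype F] (k f : ℕ) (ε : ℤ) (m : ℕ) : Prop :=
  ∃ (W : Type w) (_ : AddCommGroup W) (_ : Module F W) (_ : Module.Finite F W)
    (Q : QuadraticForm F W) (h : End F W),
    Typ ε m Q ∧ (∀ x, Q (h x) = Q x) ∧ (∀ j : ℕ, h ^ j = 1 ↔ 2 ^ k ∣ j) ∧ fx h = f ∧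
      Nm h (2 ^ k) ≠ 0

/-- There is a quadratic space of dimension `8` and minus type with an isometry `h` of order exactly
`M`, with even dimensional fixed space and `1 + h + ... + h^(M-1) ≠ 0`. -/
def ModelK (F : Type u) [Field F] [Fintype F] (M : ℕ) : Prop :=
  ∃ (W : Type w) (_ : AddCommGroup W) (_ : Module F W) (_ : Module.Finite F W)
    (Q : QuadraticForm F W) (h : End F W),
    Typ (-1) 4 Q ∧ (∀ x, Q (h x) = Q x) ∧ (∀ j : ℕ, h ^ j = 1 ↔ M ∣ j) ∧ Even (fx h) ∧
      Nm h M ≠ 0

end Cfsg.Agent.Lib.Helper45OspDefs2
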