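import Mathlib
import Cfsg.Agent.Lib.Helper45OspDefs2
import Cfsg.Agent.Lib.Helper49Dickson
import Cfsg.Agent.Lib.Helper48QuadType

set_option autoImplicit false

namespace Cfsg.Agent.Lib.Helper45OspFixC

open Module Cfsg.Agent.Lib.Helper45Form Cfsg.Agent.Lib.Helper45OspDefs
  Cfsg.Agent.Lib.Helper45OspDefs2
  Cfsg.Agent.Lib.Helper49Dickson
  Cfsg.Agent.Lib.Helper48QuadType
  Cfsg.Agent.Lib.Helper7OMinus
  Cfsg.Agent.Lib.Helper7Norm2

open scoped Matrix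

universe u

theorem exists_mat {F : Type u} [Field F] {ι : Type} [Fintype ι] [DecidableEq ι]
    (Q : QuadraticForm F (ι → F)) (hQ : (QuadraticMap.polarBilin Q).Nondegenerate)
    (h : End F (ι → F)) (hi : ∀ x, Q (h x) = Q x) :
    ∃ g : ↥(Cfsg.isometryGroup F ⇑Q),
      ∀ v, ((g : Matrix.GeneralLinearGroup ι F) : Matrix ι ι F) *ᵥ v = h v := by
  have hpol : ∀ x y, QuadraticMap.polar Q (h x) (h y) = QuadraticMap.polar Q x y := by
    intro x y
    unfold QuadraticMap.polar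
    rw [← map_add, hi, hi, hi]
  have hinj : Function.Injective h := by
    rw [← LinearMap.ker_eq_bot, LinearMap.ker_eq_bot']
    intro x hx
    apply hQ.1
    intro y
    rw [QuadraticMap.polarBilin_apply_apply, ← hpol, hx]
    simp [QuadraticMap.polar]
  let e : (ι → F) ≃ₗ[F] (ι → F) := LinearEquiv.ofInjectiveEndo h hinj
  have he : (e : (ι → F) →ₗ[F] (ι → F)) = h := by
    ext x; rfl
  let G : Matrix.GeneralLinearGroup ι F :=
    ⟨LinearMap.toMatrix' h, LinearMap.toMatrix' (e.symm : (ι → F) →ₗ[F] (ι → F)), by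
      rw [← LinearMap.toMatrix'_comp, ← he, LinearEquiv.comp_symm, LinearMap.toMatrix'_id], by
      rw [← LinearMap.toMatrix'_comp, ← he, LinearEquiv.symm_comp, LinearMap.toMatrix'_id]⟩
  have hG : ∀ v, (G : Matrix ι ι F) *ᵥ v = h v := fun v => LinearMap.toMatrix'_mulVec h v
  refine ⟨⟨G, ?_⟩, hG⟩
  rw [Cfsg.Agent.Lib.Helper49Orth.mem_iso]
  intro v
  rw [hG, hi]

theorem fixSub_eq {F : Type u} [Field F] {ι : Type} [Fintype ι] [DecidableEq ι]
    (Q : QuadraticForm F (ι → F)) (h : End F (ι → F)) (g : ↥(Cfsg.isometryGroup F ⇑Q))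
    (hg : ∀ v, ((g : Matrix.GeneralLinearGroup ι F) : Matrix ι ι F) *ᵥ v = h v) :
    finrank F (Cfsg.Agent.Lib.Helper49CharTwoB.fixSub Q g) = fx h := by
  have : Cfsg.Agent.Lib.Helper49CharTwoB.fixSub Q g = LinearMap.ker (h - 1) := by
    ext x
    rw [Cfsg.Agent.Lib.Helper49CharTwoB.mem_fixSub, hg, LinearMap.mem_ker, LinearMap.sub_apply,
      Module.End.one_apply, sub_eq_zero]
  rw [this]
  rfl

theorem fix_mul_gen {F : Type u} [Field F] [Fintype F] [CharP F 2] {ι : Type} [Fintype ι]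
    [DecidableEq ι] (Q : QuadraticForm F (ι → F))
    (hQ : (QuadraticMap.polarBilin Q).Nondegenerate)
    (hq : Fintype.card F ≠ 2 ∨ Fintype.card ι ≠ 4) (hev : Even (Fintype.card ι))
    (h₁ h₂ : End F (ι → F)) (i₁ : ∀ x, Q (h₁ x) = Q x) (i₂ : ∀ x, Q (h₂ x) = Q x) :
    (-1 : ℤˣ) ^ fx (h₁ * h₂) = (-1) ^ fx h₁ * (-1) ^ fx h₂ := by
  obtain ⟨g₁, hg₁⟩ := exists_mat Q hQ h₁ i₁
  obtain ⟨g₂, hg₂⟩ := exists_mat Q hQ h₂ i₂
  have hg : ∀ v, (((g₁ * g₂ : ↥(Cfsg.isometryGroup F ⇑Q)) : Matrix.GeneralLinearGroup ι F) :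
      Matrix ι ι F) *ᵥ v = (h₁ * h₂) v := by
    intro v
    rw [Subgroup.coe_mul, Units.val_mul, ← Matrix.mulVec_mulVec, hg₂, hg₁]
    rfl
  have hm := map_mul (dickson Q hQ (Cfsg.Agent.Lib.Helper49CharTwoB.mem_T Q hQ hq)) g₁ g₂
  rw [dickson_apply, dickson_apply, dickson_apply] at hm
  unfold dfun at hm
  rw [fixSub_eq Q _ _ hg, fixSub_eq Q _ _ hg₁, fixSub_eq Q _ _ hg₂,
    Module.finrank_fintype_fun_eq_card, hev.neg_one_pow, mul_one, mul_one, mul_one] at hm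
  exact hm

/-- piece `FixC` : the Dickson invariant (parity of the dimension of the fixed space) is
multiplicative on the isometries of the standard minus type form of dimension 8 -/
theorem fix_mul_std {F : Type u} [Field F] [Fintype F] [CharP F 2] (a b : F) (hab : Aniso a b)
    (h₁ h₂ : End F ((Fin 3 ⊕ Fin 3) ⊕ Fin 2 → F))
    (i₁ : ∀ x, QM F 3 a b (h₁ x) = QM F 3 a b x) (i₂ : ∀ x, QM F 3 a b (h₂ x) = QM F 3 a b x) :
    (-1 : ℤˣ) ^ fx (h₁ * h₂) = (-1) ^ fx h₁ * (-1) ^ fx h₂ :=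
  fix_mul_gen (QM F 3 a b) (nondeg_QM 3 a b hab) (Or.inr (by simp)) (by simp; decide) h₁ h₂ i₁ i₂

end Cfsg.Agent.Lib.Helper45OspFixC
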