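import Mathlib
import Cfsg.Agent.Lib.Helper45OspDefs2

set_option autoImplicit false

namespace Cfsg.Agent.Lib.Helper45OspFxLem

open Module Cfsg.Agent.Lib.Helper45Form Cfsg.Agent.Lib.Helper45OspDefs
  Cfsg.Agent.Lib.Helper45OspDefs2

universe u w w'

variable {F : Type u} [Field F] {W : Type w} [AddCommGroup W] [Module F W]
  {W' : Type w'} [AddCommGroup W'] [Module F W']

/-- piece `FxLem` -/
theorem fx_one : fx (1 : End F W) = finrank F W := by
  unfold fx
  rw [sub_self, LinearMap.ker_zero, finrank_top]

theorem fx_prod [Module.Finite F W] [Module.Finite F W'] (f : End F W) (g : End F W') :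
    fx (LinearMap.prodMap f g : End F (W × W')) = fx f + fx g := by
  unfold fx
  have h1 : (LinearMap.prodMap f g : End F (W × W')) - 1 = LinearMap.prodMap (f - 1) (g - 1) := by
    ext x <;> simp
  rw [h1, LinearMap.ker_prodMap]
  rw [← Module.finrank_prod]
  exact LinearEquiv.finrank_eq
    { toFun := fun x => (⟨x.1.1, x.2.1⟩, ⟨x.1.2, x.2.2⟩)
      map_add' := fun x y => rfl
      map_smul' := fun c x => rfl
      invFun := fun x => ⟨(x.1.1, x.2.1), ⟨x.1.2, x.2.2⟩⟩
      left_inv := fun x => rfl
      right_inv := fun x => rfl }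

theorem fx_conj (T : W ≃ₗ[F] W') (h : End F W) : fx (T.conj h) = fx h := by
  unfold fx
  have h1 : LinearMap.ker (T.conj h - 1) = (LinearMap.ker (h - 1)).map (T : W →ₗ[F] W') := by
    ext x
    rw [LinearMap.mem_ker, Submodule.mem_map]
    constructor
    · intro hx
      refine ⟨T.symm x, ?_, by simp⟩
      rw [LinearMap.mem_ker]
      apply T.injective
      simpa [LinearEquiv.conj_apply] using hx
    · rintro ⟨y, hy, rfl⟩
      rw [LinearMap.mem_ker] at hy
      have := congrArg T hy
      simpa [LinearEquiv.conj_apply] using this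
  rw [h1]
  exact LinearEquiv.finrank_map_eq T _

theorem fx_inv (g g' : End F W) (h1 : g * g' = 1) (h2 : g' * g = 1) : fx g' = fx g := by
  unfold fx
  have h0 : LinearMap.ker (g' - 1) = LinearMap.ker (g - 1) := by
    ext x
    simp only [LinearMap.mem_ker, LinearMap.sub_apply, Module.End.one_apply, sub_eq_zero]
    constructor
    · intro h
      have := congrArg g h
      rw [← Module.End.mul_apply, h1] at this
      exact this.symm
    · intro h
      have := congrArg g' h
      rw [← Module.End.mul_apply, h2] at this
      exact this.symm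
  rw [h0]

end Cfsg.Agent.Lib.Helper45OspFxLem
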