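import Mathlib
import Cfsg.Agent.Lib.Helper45OspDefs2
import Cfsg.Agent.Lib.Helper45OspFixC
import Cfsg.Agent.Lib.Helper45OspFxLem
import Cfsg.Agent.Lib.Helper45OspStd
import Cfsg.Agent.Lib.Helper45OspRootless

set_option autoImplicit false

namespace Cfsg.Agent.Lib.Helper45OspFixW

open Module Cfsg.Agent.Lib.Helper45Form Cfsg.Agent.Lib.Helper45OspDefs
  Cfsg.Agent.Lib.Helper45OspDefs2
  Cfsg.Agent.Lib.Helper45OspFixC
  Cfsg.Agent.Lib.Helper45OspFxLem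
  Cfsg.Agent.Lib.Helper45OspStd
  Cfsg.Agent.Lib.Helper45OspRootless

universe u w

/-- piece `FixW` : the same on every minus type space of dimension 8 -/
theorem fix_mul {F : Type u} [Field F] [Fintype F] [CharP F 2] {W : Type w} [AddCommGroup W]
    [Module F W] [Module.Finite F W] (Q : QuadraticForm F W) (hQ : Typ (-1) 4 Q)
    (h₁ h₂ : End F W) (i₁ : ∀ x, Q (h₁ x) = Q x) (i₂ : ∀ x, Q (h₂ x) = Q x) :
    (-1 : ℤˣ) ^ fx (h₁ * h₂) = (-1) ^ fx h₁ * (-1) ^ fx h₂ := by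
  obtain ⟨ζ, hζ⟩ := exists_rootless F
  have hab := Cfsg.Agent.Lib.Helper48QuadType.aniso_of_rootless ζ hζ
  obtain ⟨T, hT⟩ := isom_QM_of_typ Q 4 hQ 1 ζ hab
  have hiso : ∀ h : End F W, (∀ x, Q (h x) = Q x) →
      ∀ x, Cfsg.Agent.Lib.Helper7OMinus.QM F 3 1 ζ (T.conj h x)
        = Cfsg.Agent.Lib.Helper7OMinus.QM F 3 1 ζ x := by
    intro h hi x
    rw [LinearEquiv.conj_apply_apply]
    have h1 := hT (h (T.symm x))
    have h2 := hT (T.symm x)
    rw [LinearEquiv.apply_symm_apply] at h2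
    exact h1.trans ((hi _).trans h2.symm)
  have hmul : T.conj (h₁ * h₂) = T.conj h₁ * T.conj h₂ := by
    ext x
    simp [LinearEquiv.conj_apply]
  have := fix_mul_std 1 ζ hab (T.conj h₁) (T.conj h₂) (hiso h₁ i₁) (hiso h₂ i₂)
  rwa [← hmul, fx_conj, fx_conj, fx_conj] at this

end Cfsg.Agent.Lib.Helper45OspFixW
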