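import Mathlib
import Cfsg.Agent.Lib.Helper45OspDefs2
import Cfsg.Agent.Lib.Helper45OspFixW
import Cfsg.Agent.Lib.Helper45OspFxLem

set_option autoImplicit false

namespace Cfsg.Agent.Lib.Helper45OspFixOdd

open Module Cfsg.Agent.Lib.Helper45Form Cfsg.Agent.Lib.Helper45OspDefs
  Cfsg.Agent.Lib.Helper45OspDefs2
  Cfsg.Agent.Lib.Helper45OspFixW
  Cfsg.Agent.Lib.Helper45OspFxLem

universe u w

/-- piece `FixOdd` : isometries of odd order have an even dimensional fixed space -/
theorem fix_odd {F : Type u} [Field F] [Fintype F] [CharP F 2] {W : Type w} [AddCommGroup W]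
    [Module F W] [Module.Finite F W] (Q : QuadraticForm F W) (hQ : Typ (-1) 4 Q)
    (h : End F W) (i : ∀ x, Q (h x) = Q x) (M : ℕ) (hM : Odd M) (hh : h ^ M = 1) :
    Even (fx h) := by
  have hone : (-1 : ℤˣ) ^ fx (1 : End F W) = 1 := by
    rw [fx_one, hQ.2.2.1]
    norm_num
  have hiso : ∀ j : ℕ, ∀ x, Q ((h ^ j) x) = Q x := by
    intro j
    induction j with
    | zero => intro x; simp
    | succ j ih =>
      intro x
      rw [pow_succ, Module.End.mul_apply, ih, i]
  have hpow : ∀ j : ℕ, (-1 : ℤˣ) ^ fx (h ^ j) = ((-1) ^ fx h) ^ j := by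
    intro j
    induction j with
    | zero => rw [pow_zero, pow_zero, hone]
    | succ j ih => rw [pow_succ, fix_mul Q hQ _ _ (hiso j) i, ih, pow_succ]
  have h1 := hpow M
  rw [hh, hone] at h1
  by_contra hodd
  rw [Nat.not_even_iff_odd] at hodd
  rw [hodd.neg_one_pow, hM.neg_one_pow] at h1
  exact absurd h1 (by decide)

end Cfsg.Agent.Lib.Helper45OspFixOdd
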