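import Mathlib
import Cfsg.Agent.Lib.Helper45OspDefs2
import Cfsg.Agent.Lib.Helper45TrA
import Cfsg.Agent.Lib.Helper45SU3

set_option autoImplicit false

namespace Cfsg.Agent.Lib.Helper45OspNmLem

open Module Cfsg.Agent.Lib.Helper45Form Cfsg.Agent.Lib.Helper45OspDefs
  Cfsg.Agent.Lib.Helper45OspDefs2

universe u w w'

variable {F : Type u} [Field F] {W : Type w} [AddCommGroup W] [Module F W]
  {W' : Type w'} [AddCommGroup W'] [Module F W']

/-- piece `NmLem` -/
theorem sub_one_mul_nm (h : End F W) (n : ℕ) : (h - 1) * Nm h n = h ^ n - 1 := by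
  unfold Nm
  exact mul_geom_sum h n

theorem nm_commute (h : End F W) (n : ℕ) : Commute h (Nm h n) := by
  unfold Nm
  exact Commute.sum_right _ _ _ (fun i _ => (Commute.refl h).pow_right i)

theorem nm_mul (h : End F W) (a b : ℕ) (ha : h ^ a = 1) : Nm h (a * b) = b • Nm h a := by
  induction b with
  | zero => simp [Nm]
  | succ b ih =>
    have h1 : Nm h (a * (b + 1)) = Nm h (a * b) + Nm h a := by
      unfold Nm
      rw [Nat.mul_succ, Finset.sum_range_add]
      congr 1
      apply Finset.sum_congr rfl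
      intro i _
      rw [pow_add, pow_mul, ha, one_pow, one_mul]
    rw [h1, ih, succ_nsmul]

theorem nm_odd [CharP F 2] (h : End F W) (a b : ℕ) (ha : h ^ a = 1) (hb : Odd b) :
    Nm h (a * b) = Nm h a := by
  have h2 : (2 : F) = 0 := by exact_mod_cast CharP.cast_eq_zero F 2
  obtain ⟨c, rfl⟩ := hb
  rw [nm_mul h a _ ha, add_nsmul, one_nsmul, mul_comm 2 c, mul_nsmul']
  have h3 : 2 • Nm h a = 0 := by
    rw [← Nat.cast_smul_eq_nsmul F]
    simp [h2]
  rw [h3, smul_zero, zero_add]

theorem nm_prod (f : End F W) (g : End F W') (n : ℕ) :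
    Nm (LinearMap.prodMap f g : End F (W × W')) n = LinearMap.prodMap (Nm f n) (Nm g n) := by
  induction n with
  | zero =>
    unfold Nm
    simp only [Finset.range_zero, Finset.sum_empty]
    ext x <;> simp
  | succ n ih =>
    unfold Nm at ih ⊢
    rw [Finset.sum_range_succ, Finset.sum_range_succ, Finset.sum_range_succ, ih,
      Cfsg.Agent.Lib.Helper45TrA.prodMap_pow]
    ext x <;> simp

theorem nm_restrict (g : End F W) (Z : Submodule F W) (hZ : Z ∈ g.invtSubmodule) (n : ℕ) (z : Z) :
    ((Nm (LinearMap.restrict g (p := Z) (q := Z) hZ) n z : Z) : W) = Nm g n z := by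
  unfold Nm
  rw [LinearMap.sum_apply, LinearMap.sum_apply, Submodule.coe_sum]
  apply Finset.sum_congr rfl
  intro i _
  exact Cfsg.Agent.Lib.Helper45SU3.restrict_pow_apply Z hZ i z

theorem conj_pow (T : W ≃ₗ[F] W') (h : End F W) (n : ℕ) : T.conj (h ^ n) = (T.conj h) ^ n := by
  induction n with
  | zero =>
    ext x
    simp [LinearEquiv.conj_apply]
  | succ n ih =>
    rw [pow_succ, pow_succ, ← ih]
    ext x
    simp [LinearEquiv.conj_apply]

theorem nm_conj (T : W ≃ₗ[F] W') (h : End F W) (n : ℕ) : Nm (T.conj h) n = T.conj (Nm h n) := by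
  unfold Nm
  rw [map_sum]
  apply Finset.sum_congr rfl
  intro i _
  rw [conj_pow]

end Cfsg.Agent.Lib.Helper45OspNmLem
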