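import Mathlib
import Cfsg.Agent.Lib.Helper45OspDefs2
import Cfsg.Agent.Lib.Helper45OspSum
import Cfsg.Agent.Lib.Helper45OspNmLem
import Cfsg.Agent.Lib.Helper45OspFxLem
import Cfsg.Agent.Lib.Helper45OspFixOdd
import Cfsg.Agent.Lib.Helper45TrA

set_option autoImplicit false

namespace Cfsg.Agent.Lib.Helper45OspComb

open Module Cfsg.Agent.Lib.Helper45Form Cfsg.Agent.Lib.Helper45OspDefs
  Cfsg.Agent.Lib.Helper45OspDefs2
  Cfsg.Agent.Lib.Helper45OspSum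
  Cfsg.Agent.Lib.Helper45OspNmLem
  Cfsg.Agent.Lib.Helper45OspFxLem
  Cfsg.Agent.Lib.Helper45OspFixOdd
  Cfsg.Agent.Lib.Helper45TrA

universe u w₁ w₂

/-- piece `Comb` : odd order model ⊥ unipotent model -/
theorem comb {F : Type u} [Field F] [Fintype F] [CharP F 2] (M : ℕ) (hM : Odd M) (ε₁ ε₂ : ℤ)
    (m₁ m₂ k f : ℕ) (hf : Even f) (hε : ε₁ * ε₂ = -1) (hm : m₁ + m₂ = 4)
    (h₁ : Model.{u, w₁} F M ε₁ m₁) (h₂ : UMod.{u, w₂} F k f ε₂ m₂) :
    ModelK.{u, max w₁ w₂} F (2 ^ k * M) := by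
  obtain ⟨W₁, _, _, _, Q₁, s, hQ₁, hi₁, hs⟩ := h₁
  obtain ⟨W₂, _, _, _, Q₂, w, hQ₂, hi₂, hw, hfx, hN⟩ := h₂
  have hQ : Typ (-1) 4 (Q₁.prod Q₂) := by
    have := typ_prod ε₁ ε₂ m₁ m₂ Q₁ Q₂ hQ₁ hQ₂
    rwa [hε, hm] at this
  have hcop : Nat.Coprime (2 ^ k) M := (Nat.coprime_two_left.2 hM).pow_left k
  refine ⟨W₁ × W₂, inferInstance, inferInstance, inferInstance, Q₁.prod Q₂,
    LinearMap.prodMap s w, hQ, ?_, ?_, ?_, ?_⟩
  · intro x
    simp only [QuadraticMap.prod_apply, LinearMap.prodMap_apply, hi₁, hi₂]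
  · intro j
    rw [prodMap_pow, prodMap_eq_one_iff, hs, hw]
    constructor
    · rintro ⟨h1, h2⟩
      exact hcop.mul_dvd_of_dvd_of_dvd h2 h1
    · intro h
      exact ⟨(Dvd.intro_left _ rfl).trans h, (Dvd.intro _ rfl).trans h⟩
  · rw [fx_prod, hfx]
    have h1 : Even (fx (LinearMap.prodMap s (1 : End F W₂) : End F (W₁ × W₂))) := by
      apply fix_odd (Q₁.prod Q₂) hQ _ _ M hM
      · rw [prodMap_pow, prodMap_eq_one_iff]
        exact ⟨(hs M).2 dvd_rfl, one_pow M⟩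
      · intro x
        simp only [QuadraticMap.prod_apply, LinearMap.prodMap_apply, hi₁, Module.End.one_apply]
    rw [fx_prod, fx_one, hQ₂.2.2.1] at h1
    have h2 : Even (fx s) := by
      rcases h1 with ⟨c, hc⟩
      exact ⟨c - m₂, by omega⟩
    exact h2.add hf
  · rw [nm_prod, nm_odd w (2 ^ k) M ((hw _).2 dvd_rfl) hM]
    intro h0
    apply hN
    apply LinearMap.ext
    intro x
    have := congrArg Prod.snd (LinearMap.congr_fun h0 (0, x))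
    simpa using this

end Cfsg.Agent.Lib.Helper45OspComb
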