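import Mathlib
import Cfsg.Agent.Lib.Helper45OspDefs2

set_option autoImplicit false

namespace Cfsg.Agent.Lib.Helper45OspFit

open Module Cfsg.Agent.Lib.Helper45Form Cfsg.Agent.Lib.Helper45OspDefs
  Cfsg.Agent.Lib.Helper45OspDefs2

universe u w

/-- piece `Fit` : orthogonal Fitting decomposition with respect to `g - 1` -/
theorem fitting {F : Type u} [Field F] {V : Type w} [AddCommGroup V] [Module F V]
    [Module.Finite F V] (β : V →ₗ[F] V →ₗ[F] F) {g g' : End F V} (hg : Isom β g g') :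
    ∃ V1 V2 : Submodule F V, IsCompl V1 V2 ∧ V1 ∈ g.invtSubmodule ∧ V2 ∈ g.invtSubmodule ∧
      (∀ u ∈ V1, ∀ v ∈ V2, β u v = 0) ∧ (∀ u ∈ V2, ∀ v ∈ V1, β u v = 0) ∧
      (∃ r : ℕ, ∀ u ∈ V1, ((g - 1) ^ r) u = 0) ∧ (∀ v ∈ V2, (g - 1) v = 0 → v = 0) := by
  obtain ⟨r, hc, hr⟩ := ((LinearMap.eventually_isCompl_ker_pow_range_pow (g - 1)).and
    (Filter.eventually_ge_atTop 1)).exists
  have hcomm : Commute ((g - 1) ^ r) g :=
    (((Commute.refl g).sub_left (Commute.one_left g))).pow_left r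
  have hfac : g' - 1 = (-g') * (g - 1) := by
    rw [mul_sub, mul_one, neg_mul, hg.inv_mul]; abel
  have hcm : Commute (-g') (g - 1) :=
    ((hg.commute.symm.sub_right (Commute.one_right g'))).neg_left
  have hpow : (g' - 1) ^ r = (-g') ^ r * (g - 1) ^ r := by
    rw [hfac, hcm.mul_pow]
  have hkill : ∀ u ∈ LinearMap.ker ((g - 1) ^ r), ((g' - 1) ^ r) u = 0 := by
    intro u hu
    rw [LinearMap.mem_ker] at hu
    rw [hpow, Module.End.mul_apply, hu, map_zero]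
  refine ⟨LinearMap.ker ((g - 1) ^ r), LinearMap.range ((g - 1) ^ r), hc, ker_mem_invt hcomm,
    range_mem_invt hcomm, ?_, ?_, ⟨r, fun u hu => hu⟩, ?_⟩
  · rintro u hu _ ⟨w, rfl⟩
    have h1 := ((hg.adj'.sub Adj.one).pow r) u w
    rw [← h1, hkill u hu]
    simp
  · rintro _ ⟨w, rfl⟩ v hv
    have h1 := ((hg.adj.sub Adj.one).pow r) w v
    rw [h1, hkill v hv]
    simp
  · intro v hv h0
    have hk : v ∈ LinearMap.ker ((g - 1) ^ r) := by
      rw [LinearMap.mem_ker]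
      obtain ⟨s, rfl⟩ : ∃ s, r = s + 1 := ⟨r - 1, by omega⟩
      rw [pow_succ, Module.End.mul_apply, h0, map_zero]
    have : v ∈ LinearMap.ker ((g - 1) ^ r) ⊓ LinearMap.range ((g - 1) ^ r) := ⟨hk, hv⟩
    rw [hc.inf_eq_bot] at this
    exact (Submodule.mem_bot F).mp this

end Cfsg.Agent.Lib.Helper45OspFit
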