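import Mathlib
import Cfsg.Agent.Lib.Helper45OspDefs2

set_option autoImplicit false

namespace Cfsg.Agent.Lib.Helper45OspGeo

open Module Cfsg.Agent.Lib.Helper45Form Cfsg.Agent.Lib.Helper45OspDefs
  Cfsg.Agent.Lib.Helper45OspDefs2

universe u w

variable {F : Type u} [Field F] {W : Type w} [AddCommGroup W] [Module F W]

open Polynomial in
theorem poly_id [CharP F 2] (k : ℕ) :
    (∑ i ∈ Finset.range (2 ^ k), (X : F[X]) ^ i) = (X - 1) ^ (2 ^ k - 1) := by
  have hne : (X - 1 : F[X]) ≠ 0 := X_sub_C_ne_zero (1 : F) |> fun h => by simpa using h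
  apply mul_left_cancel₀ hne
  have h1 : (X - 1 : F[X]) * ∑ i ∈ Finset.range (2 ^ k), (X : F[X]) ^ i = X ^ (2 ^ k) - 1 := by
    rw [mul_comm]; exact geom_sum_mul X (2 ^ k)
  rw [h1, ← pow_succ', Nat.sub_add_cancel Nat.one_le_two_pow, sub_pow_char_pow, one_pow]

/-- piece `Geo` : `1 + w + ... + w^(2^k-1) = (w-1)^(2^k-1)` in characteristic 2 -/
theorem nm_two_pow [CharP F 2] (h : End F W) (k : ℕ) : Nm h (2 ^ k) = (h - 1) ^ (2 ^ k - 1) := by
  have := congrArg (Polynomial.aeval h) (poly_id (F := F) k)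
  simpa [Nm] using this

end Cfsg.Agent.Lib.Helper45OspGeo
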