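import Mathlib
import Cfsg.Agent.Lib.Helper45OspDefs2
import Cfsg.Agent.Lib.Helper45OspFixW
import Cfsg.Agent.Lib.Helper45OspFxLem

set_option autoImplicit false

namespace Cfsg.Agent.Lib.Helper45OspKGrp

open Module Cfsg.Agent.Lib.Helper45Form Cfsg.Agent.Lib.Helper45OspDefs
  Cfsg.Agent.Lib.Helper45OspDefs2
  Cfsg.Agent.Lib.Helper45OspFixW
  Cfsg.Agent.Lib.Helper45OspFxLem

universe u w

/-- piece `KGrp` : the isometries with an even dimensional fixed space form a group -/
def KK {F : Type u} [Field F] [Fintype F] [CharP F 2] {W : Type w} [AddCommGroup W]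
    [Module F W] [Module.Finite F W] (Q : QuadraticForm F W) (hQ : Typ (-1) 4 Q) :
    Subgroup (End F W)ˣ where
  carrier := {g | (∀ x, Q ((g : End F W) x) = Q x) ∧ Even (fx (g : End F W))}
  mul_mem' := by
    rintro a b ⟨ha, ha'⟩ ⟨hb, hb'⟩
    refine ⟨fun x => ?_, ?_⟩
    · rw [Units.val_mul, Module.End.mul_apply, ha, hb]
    · have h1 := fix_mul Q hQ (a : End F W) (b : End F W) ha hb
      rw [ha'.neg_one_pow, hb'.neg_one_pow, mul_one] at h1
      rw [Units.val_mul]
      by_contra hodd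
      rw [Nat.not_even_iff_odd] at hodd
      rw [hodd.neg_one_pow] at h1
      exact absurd h1 (by decide)
  one_mem' := by
    refine ⟨fun x => by simp, ?_⟩
    rw [Units.val_one, fx_one, hQ.2.2.1]
    exact ⟨4, by norm_num⟩
  inv_mem' := by
    rintro a ⟨ha, ha'⟩
    refine ⟨fun x => ?_, ?_⟩
    · have h1 := ha ((a⁻¹ : (End F W)ˣ).val x)
      rw [← Module.End.mul_apply, Units.mul_inv, Module.End.one_apply] at h1
      exact h1.symm
    · rw [fx_inv (a : End F W) _ (Units.mul_inv a) (Units.inv_mul a)]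
      exact ha'

theorem mem_KK {F : Type u} [Field F] [Fintype F] [CharP F 2] {W : Type w} [AddCommGroup W]
    [Module F W] [Module.Finite F W] (Q : QuadraticForm F W) (hQ : Typ (-1) 4 Q)
    (g : (End F W)ˣ) :
    g ∈ KK Q hQ ↔ (∀ x, Q ((g : End F W) x) = Q x) ∧ Even (fx (g : End F W)) := Iff.rfl

end Cfsg.Agent.Lib.Helper45OspKGrp
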