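import Mathlib
import Cfsg.Agent.Lib.Helper45OspDefs2

set_option autoImplicit false

namespace Cfsg.Agent.Lib.Helper45OspPi

open Module Cfsg.Agent.Lib.Helper45Form Cfsg.Agent.Lib.Helper45OspDefs
  Cfsg.Agent.Lib.Helper45OspDefs2

universe u w

variable {F : Type u} [Field F] {W : Type w} [AddCommGroup W] [Module F W]

theorem smul_eq (K : Subgroup (End F W)ˣ) (k : ℕ) (g : K) (n : ℕ) (x : Fin k → W) (j : Fin k) :
    (∑ i ∈ Finset.range n, g ^ i • x) j = Nm (((g : (End F W)ˣ)) : End F W) n (x j) := by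
  rw [Finset.sum_apply, Nm, LinearMap.sum_apply]
  refine Finset.sum_congr rfl fun i _ => ?_
  rw [Pi.smul_apply, Subgroup.smul_def, Units.smul_def, Module.End.smul_def]
  simp

/-- piece `Pi` : the norm on `W^k` -/
theorem pi_norm (K : Subgroup (End F W)ˣ) (k : ℕ) (hk : 1 ≤ k) (g : K) (n : ℕ) :
    (∃ x : Fin k → W, ∑ i ∈ Finset.range n, g ^ i • x ≠ 0) ↔
      Nm (((g : (End F W)ˣ)) : End F W) n ≠ 0 := by
  constructor
  · rintro ⟨x, hx⟩ h0
    apply hx
    funext j
    rw [smul_eq, h0]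
    rfl
  · intro h0
    obtain ⟨w, hw⟩ : ∃ w, Nm (((g : (End F W)ˣ)) : End F W) n w ≠ 0 := by
      by_contra hcon
      push Not at hcon
      exact h0 (LinearMap.ext hcon)
    refine ⟨fun _ => w, fun h1 => hw ?_⟩
    have := congrFun h1 ⟨0, hk⟩
    rw [smul_eq] at this
    exact this

/-- piece `Pi` : exact order of a unit -/
theorem unit_order (K : Subgroup (End F W)ˣ) (g : K) (j : ℕ) :
    (((g : (End F W)ˣ)) : End F W) ^ j = 1 ↔ orderOf g ∣ j := by
  rw [orderOf_dvd_iff_pow_eq_one]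
  constructor
  · intro h
    apply Subtype.ext
    apply Units.ext
    simpa using h
  · intro h
    have := congrArg (fun z : K => (((z : (End F W)ˣ)) : End F W)) h
    simpa using this

end Cfsg.Agent.Lib.Helper45OspPi
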