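import Mathlib
import Cfsg.Agent.Lib.Helper45OspDefs2

set_option autoImplicit false

namespace Cfsg.Agent.Lib.Helper45OspSD

open Module Cfsg.Agent.Lib.Helper45Form Cfsg.Agent.Lib.Helper45OspDefs
  Cfsg.Agent.Lib.Helper45OspDefs2

universe u v

section

variable {K : Type u} [Group K] {U : Type v} [AddCommGroup U] [DistribMulAction K U]

/-- the semidirect product -/
abbrev SDP (K : Type u) [Group K] (U : Type v) [AddCommGroup U] [DistribMulAction K U] :
    Type (max u v) :=
  Multiplicative U ⋊[(MulAutMultiplicative U).symm.toMonoidHom.comp (DistribMulAction.toAddAut K U)] K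

theorem pow_left (x : U) (g : K) (n : ℕ) :
    ((⟨Multiplicative.ofAdd x, g⟩ : SDP K U) ^ n) =
      ⟨Multiplicative.ofAdd (∑ i ∈ Finset.range n, g ^ i • x), g ^ n⟩ := by
  induction n with
  | zero => simp only [pow_zero, Finset.range_zero, Finset.sum_empty]; rfl
  | succ n ih =>
    rw [pow_succ, ih]
    apply SemidirectProduct.ext
    · rw [SemidirectProduct.mul_left, Finset.sum_range_succ]
      rfl
    · rw [SemidirectProduct.mul_right, pow_succ]

theorem order_cases (h2 : ∀ x : U, x + x = 0) [Finite K] (x : U) (g : K) :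
    (∑ i ∈ Finset.range (orderOf g), g ^ i • x = 0 →
      orderOf (⟨Multiplicative.ofAdd x, g⟩ : SDP K U) = orderOf g) ∧
    (∑ i ∈ Finset.range (orderOf g), g ^ i • x ≠ 0 →
      orderOf (⟨Multiplicative.ofAdd x, g⟩ : SDP K U) = 2 * orderOf g) := by
  set h : SDP K U := ⟨Multiplicative.ofAdd x, g⟩ with hh
  have hm : 0 < orderOf g := orderOf_pos g
  have hdvd : orderOf g ∣ orderOf h := by
    have := orderOf_map_dvd (SemidirectProduct.rightHom :
      SDP K U →* K) h
    exact this
  have hpm : h ^ orderOf g =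
      ⟨Multiplicative.ofAdd (∑ i ∈ Finset.range (orderOf g), g ^ i • x), 1⟩ := by
    rw [hh, pow_left, pow_orderOf_eq_one]
  constructor
  · intro h0
    apply Nat.dvd_antisymm _ hdvd
    apply orderOf_dvd_of_pow_eq_one
    rw [hpm, h0]
    rfl
  · intro h0
    have hne : h ^ orderOf g ≠ 1 := by
      rw [hpm]
      intro h1
      apply h0
      have := congrArg SemidirectProduct.left h1
      exact this
    have h2m : h ^ (2 * orderOf g) = 1 := by
      rw [mul_comm, pow_mul, hpm, pow_two]
      apply SemidirectProduct.ext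
      · rw [SemidirectProduct.mul_left]
        simp only [map_one, MulAut.one_apply, SemidirectProduct.one_left]
        rw [← ofAdd_add, h2]
        rfl
      · exact one_mul (1 : K)
    have hd2 : orderOf h ∣ 2 * orderOf g := orderOf_dvd_of_pow_eq_one h2m
    obtain ⟨c, hc⟩ := hdvd
    rw [hc, mul_comm 2] at hd2
    have hc2 : c ∣ 2 := Nat.dvd_of_mul_dvd_mul_left hm hd2
    have hc' : c = 1 ∨ c = 2 := (Nat.dvd_prime Nat.prime_two).mp hc2
    rcases hc' with rfl | rfl
    · exfalso
      apply hne
      rw [mul_one] at hc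
      rw [← hc, pow_orderOf_eq_one]
    · rw [hc, mul_comm]

end

/-- piece `SD` : the element orders of the semidirect product `U ⋊ K`, `U` of exponent 2 -/
theorem sd {K : Type u} [Group K] [Finite K] {U : Type v} [AddCommGroup U] [Finite U]
    [DistribMulAction K U] (h2 : ∀ x : U, x + x = 0) :
    ∃ (H : Type (max u v)) (_ : Group H) (_ : Finite H), Nat.card H = Nat.card U * Nat.card K ∧
      ∀ n : ℕ, n ∈ Set.range (orderOf : H → ℕ) ↔
        ∃ g : K, n = orderOf g ∨
          (n = 2 * orderOf g ∧ ∃ x : U, ∑ i ∈ Finset.range (orderOf g), g ^ i • x ≠ 0) := by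
  refine ⟨SDP K U, inferInstance, Finite.of_equiv _ SemidirectProduct.equivProd.symm, ?_, ?_⟩
  · rw [Nat.card_congr SemidirectProduct.equivProd, Nat.card_prod]
    rfl
  · intro n
    constructor
    · rintro ⟨⟨x, g⟩, rfl⟩
      refine ⟨g, ?_⟩
      have hc := order_cases h2 (Multiplicative.toAdd x) g
      by_cases h0 : ∑ i ∈ Finset.range (orderOf g), g ^ i • (Multiplicative.toAdd x) = 0
      · left
        exact hc.1 h0
      · right
        exact ⟨hc.2 h0, _, h0⟩
    · rintro ⟨g, rfl | ⟨rfl, x, hx⟩⟩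
      · refine ⟨⟨Multiplicative.ofAdd 0, g⟩, ?_⟩
        exact (order_cases h2 (0 : U) g).1 (by simp)
      · exact ⟨⟨Multiplicative.ofAdd x, g⟩, (order_cases h2 x g).2 hx⟩

end Cfsg.Agent.Lib.Helper45OspSD
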