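import Mathlib
import Cfsg.Agent.Lib.Helper45OspDefs2

set_option autoImplicit false

namespace Cfsg.Agent.Lib.Helper45OspToType

open Module Cfsg.Agent.Lib.Helper45Form Cfsg.Agent.Lib.Helper45OspDefs
  Cfsg.Agent.Lib.Helper45OspDefs2

universe u

/-- a copy of `Fin n` without algebraic structure -/
structure Cp (n : ℕ) : Type where
  val : Fin n

def cpEquiv (n : ℕ) : Cp n ≃ Fin n := ⟨Cp.val, Cp.mk, fun _ => rfl, fun _ => rfl⟩

/-- piece `ToType` : a finite group has a copy in `Type` -/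
theorem to_type (G : Type u) [Group G] [Finite G] :
    ∃ (H : Type) (_ : Group H) (_ : Fintype H), Fintype.card H = Nat.card G ∧
      Set.range (orderOf : H → ℕ) = Set.range (orderOf : G → ℕ) := by
  let e : Cp (Nat.card G) ≃ G := (cpEquiv _).trans (Finite.equivFin G).symm
  let _ : Group (Cp (Nat.card G)) := e.group
  let E : Cp (Nat.card G) ≃* G := e.mulEquiv
  refine ⟨Cp (Nat.card G), inferInstance, Fintype.ofEquiv _ (cpEquiv _).symm, ?_, ?_⟩
  · exact (@Fintype.card_congr _ _ (Fintype.ofEquiv _ (cpEquiv _).symm) _ (cpEquiv _)).trans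
      (Fintype.card_fin _)
  ext n
  constructor
  · rintro ⟨x, rfl⟩
    exact ⟨E x, E.orderOf_eq x⟩
  · rintro ⟨x, rfl⟩
    exact ⟨E.symm x, E.symm.orderOf_eq x⟩

end Cfsg.Agent.Lib.Helper45OspToType
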