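import Mathlib
import Cfsg.Agent.Lib.Helper45OspDefs2

set_option autoImplicit false

namespace Cfsg.Agent.Lib.Helper45OspUnit

open Module Cfsg.Agent.Lib.Helper45Form Cfsg.Agent.Lib.Helper45OspDefs
  Cfsg.Agent.Lib.Helper45OspDefs2

universe u w

/-- piece `Unit` : an isometry is invertible and has finite order -/
theorem exists_unit {F : Type u} [Field F] [Fintype F] {W : Type w} [AddCommGroup W]
    [Module F W] [Module.Finite F W] (Q : QuadraticForm F W) (ε : ℤ) (m : ℕ) (hQ : Typ ε m Q)
    (h : End F W) (i : ∀ x, Q (h x) = Q x) : ∃ g : (End F W)ˣ, (g : End F W) = h := by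
  have hnd := hQ.2.1
  have hpol : ∀ x y, QuadraticMap.polar Q (h x) (h y) = QuadraticMap.polar Q x y := by
    intro x y
    simp only [QuadraticMap.polar, ← map_add, i]
  have hinj : Function.Injective h := by
    rw [← LinearMap.ker_eq_bot, LinearMap.ker_eq_bot']
    intro x hx
    apply hnd.1
    intro y
    rw [QuadraticMap.polarBilin_apply_apply, ← hpol, hx]
    simp [QuadraticMap.polar]
  have hu : IsUnit h := (Module.End.isUnit_iff h).2
    ⟨hinj, LinearMap.injective_iff_surjective.1 hinj⟩
  exact ⟨hu.unit, rfl⟩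

end Cfsg.Agent.Lib.Helper45OspUnit
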