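import Mathlib
import Cfsg.Agent.Lib.Helper45OspDefs2
import Cfsg.Agent.Lib.Helper45OspKGrp
import Cfsg.Agent.Lib.Helper45OspSD
import Cfsg.Agent.Lib.Helper45OspToType
import Cfsg.Agent.Lib.Helper45OspPi
import Cfsg.Agent.Lib.Helper45OspUnit

set_option autoImplicit false

namespace Cfsg.Agent.Lib.Helper45OspGrp

open Module Cfsg.Agent.Lib.Helper45Form Cfsg.Agent.Lib.Helper45OspDefs
  Cfsg.Agent.Lib.Helper45OspDefs2 Cfsg.Agent.Lib.Helper45OspKGrp Cfsg.Agent.Lib.Helper45OspSD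
  Cfsg.Agent.Lib.Helper45OspToType Cfsg.Agent.Lib.Helper45OspPi Cfsg.Agent.Lib.Helper45OspUnit

universe u w

/-- assembly: the groups `W^k ⋊ K`. -/
theorem exists_group {F : Type u} [Field F] [Fintype F] [CharP F 2] {W : Type w} [AddCommGroup W]
    [Module F W] [Module.Finite F W] (Q : QuadraticForm F W) (hQ : Typ (-1) 4 Q) (M : ℕ) :
    ∃ (H : Type) (_ : Group H) (_ : Fintype H), M < Fintype.card H ∧
      ∀ n : ℕ, n ∈ Set.range (orderOf : H → ℕ) ↔
        ∃ (g : End F W) (m : ℕ), (∀ x, Q (g x) = Q x) ∧ Even (fx g) ∧ 0 < m ∧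
          (∀ j : ℕ, g ^ j = 1 ↔ m ∣ j) ∧ (n = m ∨ (n = 2 * m ∧ Nm g m ≠ 0)) := by
  have hfW : Finite W := Module.finite_of_finite F
  have hfE : Finite (End F W) := Module.finite_of_finite F
  have hfU : Finite (End F W)ˣ := inferInstance
  have h2F : (2 : F) = 0 := by exact_mod_cast CharP.cast_eq_zero F 2
  have h2 : ∀ x : Fin (M + 1) → W, x + x = 0 := by
    intro x
    rw [← two_smul F x, h2F, zero_smul]
  obtain ⟨H0, iG0, iF0, hcard0, hH0⟩ := sd (K := ↥(KK Q hQ)) (U := Fin (M + 1) → W) h2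
  obtain ⟨H, iG, iF, hcard, hH⟩ := to_type H0
  refine ⟨H, iG, iF, ?_, ?_⟩
  · rw [hcard, hcard0]
    have hnt : Nontrivial W := Module.nontrivial_of_finrank_pos (R := F) (by rw [hQ.2.2.1]; norm_num)
    have h1 : 2 ≤ Nat.card W := Finite.one_lt_card
    have h3 : Nat.card (Fin (M + 1) → W) = Nat.card W ^ (M + 1) := by
      rw [Nat.card_fun, Nat.card_fin]
    have h4 : M < 2 ^ (M + 1) := (Nat.lt_succ_self M).trans (Nat.lt_two_pow_self)
    have h5 : 2 ^ (M + 1) ≤ Nat.card W ^ (M + 1) := Nat.pow_le_pow_left h1 _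
    have h6 : 0 < Nat.card ↥(KK Q hQ) := Nat.card_pos
    rw [h3]
    calc M < Nat.card W ^ (M + 1) := lt_of_lt_of_le h4 h5
      _ ≤ Nat.card W ^ (M + 1) * Nat.card ↥(KK Q hQ) := Nat.le_mul_of_pos_right _ h6
  · intro n
    rw [hH, hH0]
    constructor
    · rintro ⟨g, h⟩
      refine ⟨((g : (End F W)ˣ) : End F W), orderOf g, g.2.1, g.2.2, orderOf_pos g,
        unit_order _ g, ?_⟩
      rcases h with h | ⟨h, hx⟩
      · exact Or.inl h
      · exact Or.inr ⟨h, (pi_norm _ (M + 1) (by omega) g _).1 hx⟩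
    · rintro ⟨g, m, hiso, hev, hm0, hm, h⟩
      obtain ⟨gu, hgu⟩ := exists_unit Q _ _ hQ g hiso
      have hmem : gu ∈ KK Q hQ := by
        rw [mem_KK, hgu]
        exact ⟨hiso, hev⟩
      have hord : orderOf (⟨gu, hmem⟩ : ↥(KK Q hQ)) = m := by
        apply Nat.dvd_antisymm
        · rw [← unit_order]
          show (gu : End F W) ^ m = 1
          rw [hgu]
          exact (hm m).2 dvd_rfl
        · rw [← hm, ← hgu]
          exact (unit_order _ (⟨gu, hmem⟩ : ↥(KK Q hQ)) _).2 dvd_rfl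
      refine ⟨⟨gu, hmem⟩, ?_⟩
      rw [hord]
      rcases h with h | ⟨h, hx⟩
      · exact Or.inl h
      · refine Or.inr ⟨h, (pi_norm _ (M + 1) (by omega) (⟨gu, hmem⟩ : ↥(KK Q hQ)) _).2 ?_⟩
        show Nm (gu : End F W) m ≠ 0
        rw [hgu]
        exact hx

end Cfsg.Agent.Lib.Helper45OspGrp
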