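import Mathlib
import Cfsg.Agent.Lib.Helper45OspDefs2

set_option autoImplicit false

namespace Cfsg.Agent.Lib.Helper45OspNil

open Module Cfsg.Agent.Lib.Helper45Form Cfsg.Agent.Lib.Helper45OspDefs
  Cfsg.Agent.Lib.Helper45OspDefs2

universe u w

/-- piece `Nil` : a nilpotent operator with `y^r ≠ 0` -/
theorem nil_bound {F : Type u} [Field F] {V : Type w} [AddCommGroup V] [Module F V]
    [Module.Finite F V] (y : End F V) (hy : IsNilpotent y) (r : ℕ) (hr : y ^ r ≠ 0) :
    r + finrank F (LinearMap.ker y) ≤ finrank F V := by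
  obtain ⟨N, hN⟩ := hy
  have hstrict : ∀ j, j ≤ r → LinearMap.ker (y ^ j) < LinearMap.ker (y ^ (j + 1)) := by
    intro j hj
    refine lt_of_le_of_ne ?_ ?_
    · intro v hv
      rw [LinearMap.mem_ker] at hv ⊢
      rw [pow_succ', Module.End.mul_apply, hv, map_zero]
    · intro h
      have h1 := Module.End.ker_pow_constant h N
      have h0 : y ^ (j + N) = 0 := by rw [pow_add, hN, mul_zero]
      rw [h0, LinearMap.ker_zero] at h1
      have h2 : y ^ j = 0 := LinearMap.ker_eq_top.mp h1
      apply hr
      rw [← Nat.sub_add_cancel hj, pow_add, h2, mul_zero]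
  have hind : ∀ j, j ≤ r →
      j + finrank F (LinearMap.ker y) ≤ finrank F (LinearMap.ker (y ^ (j + 1))) := by
    intro j
    induction j with
    | zero => intro _; rw [zero_add, zero_add, pow_one]
    | succ j ih =>
      intro hj
      have h1 := ih (by omega)
      have h2 := Submodule.finrank_lt_finrank_of_lt (hstrict (j + 1) hj)
      omega
  have h1 := hind r le_rfl
  have h2 := Submodule.finrank_le (LinearMap.ker (y ^ (r + 1)))
  omega

end Cfsg.Agent.Lib.Helper45OspNil
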