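import Mathlib
import Cfsg.Agent.Lib.Helper45OspDefs
import Cfsg.Agent.Lib.Helper45OspStd
import Cfsg.Agent.Lib.Helper49Orth

set_option autoImplicit false

namespace Cfsg.Agent.Lib.Helper45OspReal

open Module Cfsg.Agent.Lib.Helper45OspDefs Cfsg.Agent.Lib.Helper45OspStd
  Cfsg.Agent.Lib.Helper7OMinus Cfsg.Agent.Lib.Helper7Norm2

universe u w

/-- piece `Real` : from an abstract model of minus type to the concrete group -/
theorem real {F : Type u} [Field F] [Fintype F] (M : ℕ) (m : ℕ) (h : Model.{u, w} F M (-1) m)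
    (a b : F) (hab : Aniso a b) :
    M ∈ Set.range
      (orderOf : ↥(Cfsg.isometryGroup F (Cfsg.quadFormMinus (m - 1) F a b)) → ℕ) := by
  classical
  obtain ⟨W, _, _, _, Q, H, hT, hQ, hM⟩ := h
  obtain ⟨T, hTT⟩ := isom_QM_of_typ Q m hT a b hab
  have hnd := hT.2.1
  have : Finite W := Module.finite_of_finite F
  -- `H` is injective
  have hpol : ∀ x y, QuadraticMap.polar Q (H x) (H y) = QuadraticMap.polar Q x y := by
    intro x y
    unfold QuadraticMap.polar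
    rw [← map_add, hQ, hQ, hQ]
  have hinj : Function.Injective H := by
    rw [← LinearMap.ker_eq_bot, LinearMap.ker_eq_bot']
    intro x hx
    apply hnd.1
    intro y
    rw [QuadraticMap.polarBilin_apply_apply, ← hpol, hx]
    simp [QuadraticMap.polar]
  have hM0 : 0 < M := by
    let e : W ≃ₗ[F] W := LinearEquiv.ofInjectiveEndo H hinj
    have : Finite (W ≃ₗ[F] W) := Finite.of_injective (fun e => (e : W → W)) DFunLike.coe_injective
    obtain ⟨n, hn, hen⟩ := (isOfFinOrder_iff_pow_eq_one).1 (isOfFinOrder_of_finite e)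
    have he : (LinearEquiv.automorphismGroup.toLinearMapMonoidHom e : End F W) = H := by
      ext x; rfl
    have h1 := congrArg (LinearEquiv.automorphismGroup.toLinearMapMonoidHom) hen
    rw [map_pow, map_one, he] at h1
    exact Nat.pos_of_dvd_of_pos ((hM n).1 h1) hn
  have hHM : H ^ M = 1 := (hM M).2 dvd_rfl
  let Ψ : End F W ≃ₐ[F] Matrix ((Fin (m - 1) ⊕ Fin (m - 1)) ⊕ Fin 2) ((Fin (m - 1) ⊕ Fin (m - 1)) ⊕ Fin 2) F :=
    (T.conjAlgEquiv F).trans LinearMap.toMatrixAlgEquiv'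
  have hΨ : ∀ (X : End F W) v, (Ψ X).mulVec v = T (X (T.symm v)) := by
    intro X v
    show (LinearMap.toMatrix' (T.conjAlgEquiv F X)).mulVec v = _
    rw [LinearMap.toMatrix'_mulVec]
    rfl
  obtain ⟨K', rfl⟩ : ∃ K', M = K' + 1 := ⟨M - 1, by omega⟩
  let Hu : (End F W)ˣ := ⟨H, H ^ K', by rw [← pow_succ', hHM], by rw [← pow_succ, hHM]⟩
  let G : Matrix.GeneralLinearGroup ((Fin (m - 1) ⊕ Fin (m - 1)) ⊕ Fin 2) F :=
    Units.map (Ψ : End F W →* Matrix ((Fin (m - 1) ⊕ Fin (m - 1)) ⊕ Fin 2) ((Fin (m - 1) ⊕ Fin (m - 1)) ⊕ Fin 2) F) Hu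
  have hG : (G : Matrix ((Fin (m - 1) ⊕ Fin (m - 1)) ⊕ Fin 2) ((Fin (m - 1) ⊕ Fin (m - 1)) ⊕ Fin 2) F) = Ψ H := rfl
  have hmem : G ∈ Cfsg.isometryGroup F (Cfsg.quadFormMinus (m - 1) F a b) := by
    rw [Cfsg.Agent.Lib.Helper49Orth.mem_iso]
    intro v
    rw [hG, hΨ, ← QM_apply, ← QM_apply, hTT, hQ]
    conv_rhs => rw [← T.apply_symm_apply v, hTT]
  have key : ∀ j, (⟨G, hmem⟩ : ↥(Cfsg.isometryGroup F (Cfsg.quadFormMinus (m - 1) F a b))) ^ j = 1 ↔
      H ^ j = 1 := by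
    intro j
    rw [← Subtype.coe_inj, Subgroup.coe_pow, Subgroup.coe_one, ← Units.val_inj, Units.val_pow_eq_pow_val,
      Units.val_one]
    show (Ψ H) ^ j = 1 ↔ _
    rw [← map_pow, ← map_one Ψ]
    exact Ψ.injective.eq_iff
  refine ⟨⟨G, hmem⟩, ?_⟩
  apply Nat.dvd_antisymm
  · exact orderOf_dvd_of_pow_eq_one ((key _).2 hHM)
  · exact (hM _).1 ((key _).1 (pow_orderOf_eq_one _))

end Cfsg.Agent.Lib.Helper45OspReal
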