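import Mathlib
import Cfsg.Agent.Lib.Helper45OspDefs2
import Cfsg.Agent.Lib.Helper45OspFit
import Cfsg.Agent.Lib.Helper45OspNmLem

set_option autoImplicit false

namespace Cfsg.Agent.Lib.Helper45OspReduce

open Module Cfsg.Agent.Lib.Helper45Form Cfsg.Agent.Lib.Helper45OspDefs
  Cfsg.Agent.Lib.Helper45OspDefs2
  Cfsg.Agent.Lib.Helper45OspFit
  Cfsg.Agent.Lib.Helper45OspNmLem

universe u w

theorem restrict_sub_one_apply {F : Type u} [Field F] {V : Type w} [AddCommGroup V] [Module F V]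
    (g : End F V) (Z : Submodule F V) (hZ : Z ∈ g.invtSubmodule) (z : Z) :
    (((LinearMap.restrict g (p := Z) (q := Z) hZ - 1) z : Z) : V) = (g - 1) (z : V) := by
  rfl

theorem restrict_sub_one_pow_apply {F : Type u} [Field F] {V : Type w} [AddCommGroup V]
    [Module F V] (g : End F V) (Z : Submodule F V) (hZ : Z ∈ g.invtSubmodule) (j : ℕ) (z : Z) :
    ((((LinearMap.restrict g (p := Z) (q := Z) hZ - 1) ^ j) z : Z) : V) = ((g - 1) ^ j) (z : V) := by
  induction j generalizing z with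
  | zero => rfl
  | succ j ih =>
    rw [pow_succ, pow_succ, Module.End.mul_apply, Module.End.mul_apply, ih, restrict_sub_one_apply]

/-- piece `Reduce` : reduction to the generalized 1-eigenspace -/
theorem reduce {F : Type u} [Field F] {V : Type w} [AddCommGroup V] [Module F V]
    [Module.Finite F V] (β : V →ₗ[F] V →ₗ[F] F) {g g' : End F V} (hg : Isom β g g') (n : ℕ)
    (hn : g ^ n = 1) (hN : Nm g n ≠ 0) :
    ∃ (V1 V2 : Submodule F V) (h1 : V1 ∈ g.invtSubmodule) (_ : V2 ∈ g.invtSubmodule),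
      IsCompl V1 V2 ∧ (∀ u ∈ V1, ∀ v ∈ V2, β u v = 0) ∧ (∀ u ∈ V2, ∀ v ∈ V1, β u v = 0) ∧
      (∃ r : ℕ, (LinearMap.restrict g (p := V1) (q := V1) h1 - 1) ^ r = 0) ∧
      Nm (LinearMap.restrict g (p := V1) (q := V1) h1) n ≠ 0 ∧
      fx (LinearMap.restrict g (p := V1) (q := V1) h1) = fx g := by
  obtain ⟨V1, V2, hc, h1, h2, ho1, ho2, ⟨r, hr⟩, hinj⟩ := fitting β hg
  have hdec : ∀ x : V, ∃ x1 ∈ V1, ∃ x2 ∈ V2, x1 + x2 = x := by
    intro x
    have : x ∈ V1 ⊔ V2 := by rw [hc.sup_eq_top]; trivial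
    exact Submodule.mem_sup.1 this
  refine ⟨V1, V2, h1, h2, hc, ho1, ho2, ⟨r, ?_⟩, ?_, ?_⟩
  · ext z
    rw [restrict_sub_one_pow_apply, hr z z.2]
    rfl
  · intro h0
    apply hN
    ext x
    obtain ⟨x1, hx1, x2, hx2, rfl⟩ := hdec x
    have e1 : Nm g n x1 = 0 := by
      have := nm_restrict g V1 h1 n ⟨x1, hx1⟩
      rw [h0] at this
      exact this.symm
    have e2 : Nm g n x2 = 0 := by
      have hm : Nm g n x2 ∈ V2 := by
        have := nm_restrict g V2 h2 n ⟨x2, hx2⟩
        rw [← show _ = Nm g n x2 from this]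
        exact Submodule.coe_mem _
      apply hinj _ hm
      rw [← Module.End.mul_apply, sub_one_mul_nm, hn, sub_self]
      rfl
    rw [map_add, e1, e2, add_zero]
    rfl
  · unfold fx
    rw [← Submodule.finrank_map_subtype_eq V1]
    have hEq : (LinearMap.ker (LinearMap.restrict g (p := V1) (q := V1) h1 - 1)).map V1.subtype =
        LinearMap.ker (g - 1) := ?_
    · rw [hEq]
    ext x
    constructor
    · rintro ⟨z, hz, rfl⟩
      rw [SetLike.mem_coe, LinearMap.mem_ker] at hz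
      rw [LinearMap.mem_ker, Submodule.subtype_apply, ← restrict_sub_one_apply g V1 h1 z, hz]
      rfl
    · intro hx
      rw [LinearMap.mem_ker] at hx
      obtain ⟨x1, hx1, x2, hx2, rfl⟩ := hdec x
      have m1 : (g - 1) x1 ∈ V1 := by
        rw [LinearMap.sub_apply]
        exact V1.sub_mem (h1 hx1) hx1
      have m2 : (g - 1) x2 ∈ V2 := by
        rw [LinearMap.sub_apply]
        exact V2.sub_mem (h2 hx2) hx2
      rw [map_add] at hx
      have e : (g - 1) x2 = -(g - 1) x1 := by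
        rw [eq_neg_iff_add_eq_zero, add_comm]; exact hx
      have m3 : (g - 1) x2 ∈ V1 ⊓ V2 := ⟨by rw [e]; exact V1.neg_mem m1, m2⟩
      rw [hc.inf_eq_bot, Submodule.mem_bot] at m3
      have hx20 : x2 = 0 := hinj x2 hx2 m3
      subst hx20
      rw [add_zero]
      rw [m3, add_zero] at hx
      refine ⟨⟨x1, hx1⟩, ?_, rfl⟩
      rw [SetLike.mem_coe, LinearMap.mem_ker]
      apply Subtype.ext
      rw [restrict_sub_one_apply]
      exact hx

end Cfsg.Agent.Lib.Helper45OspReduce
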