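import Mathlib
import Cfsg.Agent.Lib.Helper45OspTori
import Cfsg.Agent.Lib.Helper45OspProd
import Cfsg.Agent.Lib.Helper45OspRefl
import Cfsg.Agent.Lib.Helper45OspP4
import Cfsg.Agent.Lib.Helper45OspP6
import Cfsg.Agent.Lib.Helper45OspRootless
import Cfsg.Agent.Lib.Helper45OspArith

set_option autoImplicit false

namespace Cfsg.Agent.Lib.Helper45OspTable

open Module Cfsg.Agent.Lib.Helper45OspDefs Cfsg.Agent.Lib.Helper45OspTori
  Cfsg.Agent.Lib.Helper45OspProd Cfsg.Agent.Lib.Helper45OspRefl Cfsg.Agent.Lib.Helper45OspP4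
  Cfsg.Agent.Lib.Helper45OspP6 Cfsg.Agent.Lib.Helper45OspRootless Cfsg.Agent.Lib.Helper45OspArith
  Cfsg.Agent.Lib.Helper7Norm2

universe u

/-- piece `Table` : every exponent of the list `T4` divides the order of an isometry of a minus type
space of dimension 8 -/
theorem table {F : Type u} [Field F] [Fintype F] [CharP F 2] (a b : F) (hab : Aniso a b) (q : ℕ)
    (hq : q = Fintype.card F) :
    ∀ E ∈ T4 (q - 1) (q + 1) (q ^ 2 + 1) (q ^ 2 + q + 1) (q ^ 2 - q + 1) (q ^ 4 + 1),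
      ∃ M, E ∣ M ∧ (Model.{u, u} F M (-1) 4 ∨ Model.{u, 0} F M (-1) 4) := by
  have heven : Even q := by
    rw [hq]
    exact Nat.even_iff.2 (FiniteField.even_card_of_char_two
      (CharP.ringChar_of_prime_eq_zero Nat.prime_two (CharP.cast_eq_zero F 2)))
  have hq2 : 2 ≤ q := by rw [hq]; exact Fintype.one_lt_card
  have hq1 : 1 ≤ q := by omega
  have H : ∀ d, 1 ≤ d → Model.{u, 0} F (q ^ d - 1) 1 d := fun d hd => by rw [hq]; exact hyp F d hd
  have L : ∀ d, 1 ≤ d → Model.{u, 0} F (q ^ d + 1) (-1) d := fun d hd => by rw [hq]; exact fld F d hd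
  have H1 : Model.{u, 0} F (q - 1) 1 1 := by simpa using H 1 le_rfl
  have L1 : Model.{u, 0} F (q + 1) (-1) 1 := by simpa using L 1 le_rfl
  obtain ⟨ζ, hζ⟩ := exists_rootless F
  have oa : Odd (q - 1) := Nat.Even.sub_odd hq1 heven odd_one
  have ob : Odd (q + 1) := heven.add_one
  have oc : Odd (q ^ 2 + 1) := (heven.pow_of_ne_zero two_ne_zero).add_one
  have o3p : Odd (q ^ 3 + 1) := (heven.pow_of_ne_zero three_ne_zero).add_one
  have o3m : Odd (q ^ 3 - 1) :=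
    Nat.Even.sub_odd (Nat.one_le_pow _ _ (by omega)) (heven.pow_of_ne_zero three_ne_zero) odd_one
  have c2 : ∀ n, Odd n → Nat.Coprime 2 n := fun n hn => Nat.coprime_two_left.2 hn
  have c4 : ∀ n, Odd n → Nat.Coprime 4 n := fun n hn => by
    have := Nat.Coprime.pow_left 2 (c2 n hn)
    norm_num at this
    exact this
  have c8 : ∀ n, Odd n → Nat.Coprime 8 n := fun n hn => by
    have := Nat.Coprime.pow_left 3 (c2 n hn)
    norm_num at this
    exact this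
  have two : ∀ (t x y : ℕ), Nat.Coprime t x → x ∣ y → t * x ∣ Nat.lcm y t := fun t x y h1 h2 =>
    Nat.Coprime.mul_dvd_of_dvd_of_dvd h1 (Nat.dvd_lcm_right _ _) (h2.trans (Nat.dvd_lcm_left _ _))
  have cop : ∀ (x y : ℕ), Nat.Coprime x y → x * y ∣ Nat.lcm x y := fun x y h =>
    Nat.Coprime.mul_dvd_of_dvd_of_dvd h (Nat.dvd_lcm_left _ _) (Nat.dvd_lcm_right _ _)
  intro E hE
  simp only [T4, List.mem_cons, List.not_mem_nil, or_false] at hE
  rcases hE with rfl | rfl | rfl | rfl | rfl | rfl | rfl | rfl | rfl | rfl | rfl | rfl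
  · exact ⟨_, dvd_rfl, Or.inr (L 4 (by norm_num))⟩
  · refine ⟨_, ?_, Or.inr (model_prod _ _ (-1) 1 2 2 (L 2 (by norm_num)) (H 2 (by norm_num)))⟩
    have h1 : Nat.Coprime (q ^ 2 + 1) (q ^ 2 - 1) := by
      rw [← id2 q hq1]
      exact (cop_c_a q heven hq2).mul_right (cop_c_b q heven hq2)
    rw [id2 q hq1, mul_comm]
    exact cop _ _ h1
  · refine ⟨_, ?_, Or.inr (model_prod _ _ (-1) 1 3 1 (L 3 (by norm_num)) H1)⟩
    rw [id3p q hq1]
    exact cop _ _ (cop_3p q heven hq2)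
  · refine ⟨_, ?_, Or.inr (model_prod _ _ 1 (-1) 3 1 (H 3 (by norm_num)) L1)⟩
    rw [id3m q hq1]
    exact cop _ _ (cop_3m q heven hq2)
  · refine ⟨_, ?_, Or.inl (model_prod _ _ (-1) 1 3 1 (L 3 (by norm_num)) (reflP F))⟩
    rw [id3p q hq1]
    exact two _ _ _ (c2 _ o3p) dvd_rfl
  · refine ⟨_, ?_, Or.inl (model_prod _ _ 1 (-1) 3 1 (H 3 (by norm_num)) (reflM F a b hab))⟩
    rw [id3m q hq1]
    exact two _ _ _ (c2 _ o3m) dvd_rfl
  · refine ⟨_, ?_, Or.inl (model_prod _ _ (-1) 1 3 1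
      (model_prod _ _ (-1) 1 2 1 (L 2 (by norm_num)) H1) (reflP F))⟩
    exact two _ _ _ (c2 _ (oc.mul oa)) (cop _ _ (cop_c_a q heven hq2))
  · refine ⟨_, ?_, Or.inl (model_prod _ _ 1 (-1) 3 1
      (model_prod _ _ (-1) (-1) 2 1 (L 2 (by norm_num)) L1) (reflM F a b hab))⟩
    exact two _ _ _ (c2 _ (oc.mul ob)) (cop _ _ (cop_c_b q heven hq2))
  · refine ⟨_, ?_, Or.inl (model_prod _ _ (-1) 1 2 2 (L 2 (by norm_num)) (p4 F))⟩
    exact two _ _ _ (c4 _ oc) dvd_rfl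
  · refine ⟨_, ?_, Or.inl (model_prod _ _ (-1) 1 2 2
      (model_prod _ _ 1 (-1) 1 1 H1 L1) (p4 F))⟩
    exact two _ _ _ (c4 _ (oa.mul ob)) (cop _ _ (cop_a_b q heven hq2))
  · refine ⟨_, ?_, Or.inl (model_prod _ _ 1 (-1) 1 3 H1 (p6M F ζ hζ))⟩
    exact two _ _ _ (c8 _ oa) dvd_rfl
  · refine ⟨_, ?_, Or.inl (model_prod _ _ (-1) 1 1 3 L1 (p6P F))⟩
    exact two _ _ _ (c8 _ ob) dvd_rfl

end Cfsg.Agent.Lib.Helper45OspTable
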