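import Mathlib
import Cfsg.Agent.Lib.Helper45OspDefs2
import Cfsg.Agent.Lib.Helper45OspStd
import Cfsg.Agent.Lib.Helper45OspFxLem

set_option autoImplicit false

namespace Cfsg.Agent.Lib.Helper45OspUId

open Module Cfsg.Agent.Lib.Helper45Form Cfsg.Agent.Lib.Helper45OspDefs
  Cfsg.Agent.Lib.Helper45OspDefs2
  Cfsg.Agent.Lib.Helper45OspStd
  Cfsg.Agent.Lib.Helper45OspFxLem
  Cfsg.Agent.Lib.Helper7Norm2

universe u

variable (F : Type u) [Field F] [Fintype F]

theorem um0_aux {F : Type u} [Field F] [Fintype F] {W : Type u} [AddCommGroup W] [Module F W]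
    [Module.Finite F W] (Q : QuadraticForm F W) (ε : ℤ) (hQ : Typ ε 1 Q) :
    UMod.{u, u} F 0 2 ε 1 := by
  have hfr : finrank F W = 2 := by rw [hQ.2.2.1]
  refine ⟨W, inferInstance, inferInstance, inferInstance, Q, 1, hQ, fun x => rfl, ?_, ?_, ?_⟩
  · intro j
    simp
  · rw [fx_one, hfr]
  · have : Nontrivial W := Module.nontrivial_of_finrank_pos (R := F) (by omega)
    unfold Nm
    simp

/-- piece `UId` : identity on a plane -/
theorem um0P : UMod.{u, u} F 0 2 1 1 :=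
  um0_aux _ 1 (typ_QP (F := F) 1 le_rfl)

theorem um0M (a b : F) (hab : Aniso a b) : UMod.{u, u} F 0 2 (-1) 1 :=
  um0_aux _ (-1) (typ_QM (F := F) 1 le_rfl a b hab)

end Cfsg.Agent.Lib.Helper45OspUId
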