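import Mathlib
import Cfsg.Agent.Lib.Helper45OspDefs2
import Cfsg.Agent.Lib.Helper45OspStd
import Cfsg.Agent.Lib.Helper45OspRefl

set_option autoImplicit false

namespace Cfsg.Agent.Lib.Helper45OspURefl

open Module Cfsg.Agent.Lib.Helper45Form Cfsg.Agent.Lib.Helper45OspDefs
  Cfsg.Agent.Lib.Helper45OspDefs2
  Cfsg.Agent.Lib.Helper45OspStd
  Cfsg.Agent.Lib.Helper45OspRefl
  Cfsg.Agent.Lib.Helper7Norm2

universe u

/-- the fixed space is a line -/
theorem fx_eq_one {F : Type u} [Field F] {W : Type*} [AddCommGroup W] [Module F W] (h : End F W)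
    (v0 : W) (hv0 : v0 ≠ 0) (hk : ∀ x, h x = x ↔ ∃ c : F, c • v0 = x) : fx h = 1 := by
  unfold fx
  have : LinearMap.ker (h - 1) = Submodule.span F {v0} := by
    ext x
    rw [LinearMap.mem_ker, LinearMap.sub_apply, Module.End.one_apply, sub_eq_zero, hk,
      Submodule.mem_span_singleton]
  rw [this, finrank_span_singleton hv0]

theorem nm_two {F : Type u} [Field F] {W : Type*} [AddCommGroup W] [Module F W] (h : End F W) :
    Nm h (2 ^ 1) = 1 + h := by
  unfold Nm
  rw [pow_one, Finset.sum_range_succ, Finset.sum_range_one, pow_zero, pow_one]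

variable (F : Type u) [Field F] [Fintype F] [CharP F 2]

/-- piece `URefl` : reflections, with one dimensional fixed space -/
theorem um1P : UMod.{u, u} F 1 1 1 1 := by
  refine ⟨(Fin 1 ⊕ Fin 1 → F), inferInstance, inferInstance, inferInstance,
    Cfsg.Agent.Lib.Helper7OPlus.QP F 1, LinearMap.funLeft F F Sum.swap, typ_QP 1 le_rfl, ?_, ?_,
    ?_, ?_⟩
  · intro x
    rw [Cfsg.Agent.Lib.Helper7OPlus.QP_apply, Cfsg.Agent.Lib.Helper7OPlus.QP_apply]
    simp [Cfsg.quadFormPlus, LinearMap.funLeft_apply, mul_comm]
  · rw [pow_one]
    apply pow_eq_one_iff_two_dvd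
    · apply LinearMap.ext
      intro x
      ext i
      rw [sq, Module.End.mul_apply, LinearMap.funLeft_apply, LinearMap.funLeft_apply]
      simp
    · intro h
      have h1 := congrFun (LinearMap.congr_fun h (Pi.single (Sum.inl 0) 1)) (Sum.inl 0)
      rw [LinearMap.funLeft_apply] at h1
      simp at h1
  · apply fx_eq_one _ (fun _ => (1 : F))
    · intro h
      have := congrFun h (Sum.inl 0)
      simp at this
    · intro x
      constructor
      · intro hx
        refine ⟨x (Sum.inl 0), ?_⟩
        have h1 := congrFun hx (Sum.inl 0)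
        rw [LinearMap.funLeft_apply] at h1
        ext i
        rcases i with i | i
        · have : i = 0 := Subsingleton.elim _ _
          subst this
          simp
        · have : i = 0 := Subsingleton.elim _ _
          subst this
          simpa using h1.symm
      · rintro ⟨c, rfl⟩
        ext i
        rw [LinearMap.funLeft_apply]
        simp
  · rw [nm_two]
    intro h
    have h1 := congrFun (LinearMap.congr_fun h (Pi.single (Sum.inl 0) 1)) (Sum.inl 0)
    rw [LinearMap.add_apply, Pi.add_apply, LinearMap.funLeft_apply] at h1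
    simp at h1

theorem um1M (a b : F) (hab : Aniso a b) : UMod.{u, u} F 1 1 (-1) 1 := by
  have h2 : (2 : F) = 0 := CharP.cast_eq_zero F 2
  have ha : a ≠ 0 := by
    intro h0
    have := disc_ne_zero hab
    apply this
    rw [h0]
    linear_combination (-2 * b) * h2
  let h : End F ((Fin (1 - 1) ⊕ Fin (1 - 1)) ⊕ Fin 2 → F) :=
    { toFun := fun v x => Sum.elim (fun y => v (Sum.inl y))
        (fun j => if j = 0 then v (Sum.inr 0) + a * v (Sum.inr 1) else v (Sum.inr 1)) x
      map_add' := by
        intro v w
        ext x
        rcases x with x | x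
        · simp
        · by_cases hx : x = 0
          · simp [hx]; ring
          · simp [hx]
      map_smul' := by
        intro c v
        ext x
        rcases x with x | x
        · simp
        · by_cases hx : x = 0
          · simp [hx]; ring
          · simp [hx] }
  have hl : ∀ v y, h v (Sum.inl y) = v (Sum.inl y) := fun v y => rfl
  have h0 : ∀ v, h v (Sum.inr 0) = v (Sum.inr 0) + a * v (Sum.inr 1) := fun v => rfl
  have h1 : ∀ v, h v (Sum.inr 1) = v (Sum.inr 1) := fun v => rfl
  refine ⟨((Fin (1 - 1) ⊕ Fin (1 - 1)) ⊕ Fin 2 → F), inferInstance, inferInstance, inferInstance,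
    Cfsg.Agent.Lib.Helper7OMinus.QM F (1 - 1) a b, h, typ_QM 1 le_rfl a b hab, ?_, ?_, ?_, ?_⟩
  · intro x
    rw [Cfsg.Agent.Lib.Helper7OMinus.QM_apply, Cfsg.Agent.Lib.Helper7OMinus.QM_apply]
    unfold Cfsg.quadFormMinus
    simp only [hl, h0, h1]
    linear_combination (a * x (Sum.inr 0) * x (Sum.inr 1) + a ^ 2 * x (Sum.inr 1) ^ 2) * h2
  · rw [pow_one]
    apply pow_eq_one_iff_two_dvd
    · apply LinearMap.ext
      intro x
      ext i
      rw [sq, Module.End.mul_apply, Module.End.one_apply]
      rcases i with i | i
      · rw [hl, hl]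
      · fin_cases i
        · show h (h x) (Sum.inr 0) = x (Sum.inr 0)
          rw [h0, h0, h1]
          linear_combination (a * x (Sum.inr 1)) * h2
        · show h (h x) (Sum.inr 1) = x (Sum.inr 1)
          rw [h1, h1]
    · intro hh
      have h3 := congrFun (LinearMap.congr_fun hh (Pi.single (Sum.inr 1) 1)) (Sum.inr 0)
      rw [h0] at h3
      simp at h3
      exact ha h3
  · apply fx_eq_one h (Pi.single (Sum.inr 0) 1)
    · intro hh
      have := congrFun hh (Sum.inr 0)
      simp at this
    · intro x
      constructor
      · intro hx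
        refine ⟨x (Sum.inr 0), ?_⟩
        have h3 := congrFun hx (Sum.inr 0)
        rw [h0] at h3
        have h4 : x (Sum.inr 1) = 0 := by
          have : a * x (Sum.inr 1) = 0 := by linear_combination h3
          exact (mul_eq_zero.1 this).resolve_left ha
        ext i
        rcases i with i | i
        · rcases i with i | i <;> exact i.elim0
        · fin_cases i
          · simp
          · simpa using h4.symm
      · rintro ⟨c, rfl⟩
        ext i
        rcases i with i | i
        · rw [hl]
        · fin_cases i
          · show h _ (Sum.inr 0) = _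
            rw [h0]
            simp
          · show h _ (Sum.inr 1) = _
            rw [h1]
            rfl
  · rw [nm_two]
    intro hh
    have h3 := congrFun (LinearMap.congr_fun hh (Pi.single (Sum.inr 1) 1)) (Sum.inr 0)
    rw [LinearMap.add_apply, Pi.add_apply, h0] at h3
    simp at h3
    exact ha h3

end Cfsg.Agent.Lib.Helper45OspURefl
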