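import Mathlib
import Cfsg.Agent.Lib.Helper45OspDefs2
import Cfsg.Agent.Lib.Helper45OspStd
import Cfsg.Agent.Lib.Helper45OspP4
import Cfsg.Agent.Lib.Helper45OspURefl

set_option autoImplicit false

namespace Cfsg.Agent.Lib.Helper45OspUP4

open Module Cfsg.Agent.Lib.Helper45Form Cfsg.Agent.Lib.Helper45OspDefs
  Cfsg.Agent.Lib.Helper45OspDefs2
  Cfsg.Agent.Lib.Helper45OspStd
  Cfsg.Agent.Lib.Helper45OspP4

universe u

/-- piece `UP4` : the coordinate 4-cycle, with one dimensional fixed space -/
theorem um2 (F : Type u) [Field F] [Fintype F] : UMod.{u, u} F 2 1 1 2 := by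
  let h : End F (Fin 2 ⊕ Fin 2 → F) := LinearMap.funLeft F F sig
  have happ : ∀ (x : Fin 2 ⊕ Fin 2 → F) (k : Fin 2 ⊕ Fin 2), h x k = x (sig k) := fun x k => rfl
  refine ⟨Fin 2 ⊕ Fin 2 → F, inferInstance, inferInstance, inferInstance,
    Cfsg.Agent.Lib.Helper7OPlus.QP F 2, h, typ_QP 2 (by norm_num), ?_, ?_, ?_, ?_⟩
  · intro x
    rw [Cfsg.Agent.Lib.Helper7OPlus.QP_apply, Cfsg.Agent.Lib.Helper7OPlus.QP_apply]
    simp only [Cfsg.quadFormPlus, Fin.sum_univ_two, happ, sig]
    simp
    ring
  · intro j
    have h2 : ¬ h ^ 2 ^ 1 = 1 := by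
      intro hc
      have h3 := congrArg (fun f : End F (Fin 2 ⊕ Fin 2 → F) =>
        f (Pi.single (Sum.inr 0) 1) (Sum.inl 0)) hc
      simp only [pow_one, pow_two, Module.End.mul_apply, happ, Module.End.one_apply, sig] at h3
      simp at h3
    have h4 : h ^ 2 ^ (1 + 1) = 1 := by
      apply LinearMap.ext
      intro x
      funext k
      have : (2 : ℕ) ^ (1 + 1) = 1 + 1 + 1 + 1 := by norm_num
      rw [this]
      simp only [pow_succ, pow_zero, one_mul, Module.End.mul_apply, happ, Module.End.one_apply, sig4]
    have ho : orderOf h = 2 ^ (1 + 1) := orderOf_eq_prime_pow h2 h4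
    rw [← orderOf_dvd_iff_pow_eq_one, ho]
  · apply Helper45OspURefl.fx_eq_one h (fun _ => (1 : F))
    · intro hh
      have := congrFun hh (Sum.inl 0)
      simp at this
    · intro x
      constructor
      · intro hx
        refine ⟨x (Sum.inl 0), ?_⟩
        have e0 : x (Sum.inl 1) = x (Sum.inl 0) := by
          have := congrFun hx (Sum.inl 0)
          rw [happ] at this
          exact this
        have e1 : x (Sum.inr 0) = x (Sum.inl 1) := by
          have := congrFun hx (Sum.inl 1)
          rw [happ] at this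
          exact this
        have e2 : x (Sum.inr 1) = x (Sum.inr 0) := by
          have := congrFun hx (Sum.inr 0)
          rw [happ] at this
          exact this
        ext i
        rcases i with i | i <;> fin_cases i
        · simp
        · simpa using e0.symm
        · simpa using (e1.trans e0).symm
        · simpa using (e2.trans (e1.trans e0)).symm
      · rintro ⟨c, rfl⟩
        ext i
        rw [happ]
        simp
  · intro hh
    have h3 := congrArg (fun f : End F (Fin 2 ⊕ Fin 2 → F) =>
        f (Pi.single (Sum.inl 0) 1) (Sum.inl 0)) hh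
    have e4 : (2 : ℕ) ^ 2 = 1 + 1 + 1 + 1 := by norm_num
    unfold Nm at h3
    rw [e4] at h3
    simp only [Finset.sum_range_succ, Finset.sum_range_zero, zero_add, pow_succ, pow_zero, one_mul,
      LinearMap.add_apply, Pi.add_apply, Module.End.mul_apply, happ, Module.End.one_apply, sig] at h3
    simp at h3

end Cfsg.Agent.Lib.Helper45OspUP4
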