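import Mathlib
import Cfsg.Agent.Lib.Helper45OspDefs2
import Cfsg.Agent.Lib.Helper45OspSum
import Cfsg.Agent.Lib.Helper45OspNmLem
import Cfsg.Agent.Lib.Helper45OspFxLem
import Cfsg.Agent.Lib.Helper45TrA

set_option autoImplicit false

namespace Cfsg.Agent.Lib.Helper45OspUProd

open Module Cfsg.Agent.Lib.Helper45Form Cfsg.Agent.Lib.Helper45OspDefs
  Cfsg.Agent.Lib.Helper45OspDefs2
  Cfsg.Agent.Lib.Helper45OspSum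
  Cfsg.Agent.Lib.Helper45OspNmLem
  Cfsg.Agent.Lib.Helper45OspFxLem
  Cfsg.Agent.Lib.Helper45TrA

universe u w₁ w₂

/-- piece `UProd` : orthogonal sum -/
theorem umod_prod {F : Type u} [Field F] [Fintype F] [CharP F 2] (k₁ k₂ f₁ f₂ : ℕ) (ε₁ ε₂ : ℤ)
    (m₁ m₂ : ℕ) (hk : k₂ ≤ k₁) (h₁ : UMod.{u, w₁} F k₁ f₁ ε₁ m₁) (h₂ : UMod.{u, w₂} F k₂ f₂ ε₂ m₂) :
    UMod.{u, max w₁ w₂} F k₁ (f₁ + f₂) (ε₁ * ε₂) (m₁ + m₂) := by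
  obtain ⟨W₁, _, _, _, Q₁, g₁, ht₁, hq₁, ho₁, hf₁, hn₁⟩ := h₁
  obtain ⟨W₂, _, _, _, Q₂, g₂, ht₂, hq₂, ho₂, hf₂, hn₂⟩ := h₂
  refine ⟨W₁ × W₂, inferInstance, inferInstance, inferInstance, Q₁.prod Q₂,
    LinearMap.prodMap g₁ g₂, typ_prod ε₁ ε₂ m₁ m₂ Q₁ Q₂ ht₁ ht₂, ?_, ?_, ?_, ?_⟩
  · rintro ⟨x, y⟩
    simp only [LinearMap.prodMap_apply, QuadraticMap.prod_apply, hq₁, hq₂]
  · intro j
    rw [prodMap_pow, prodMap_eq_one_iff, ho₁, ho₂]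
    exact ⟨fun h => h.1, fun h => ⟨h, (pow_dvd_pow 2 hk).trans h⟩⟩
  · rw [fx_prod, hf₁, hf₂]
  · rw [nm_prod]
    intro h0
    apply hn₁
    apply LinearMap.ext
    intro x
    exact congrArg Prod.fst (LinearMap.congr_fun h0 (x, 0))

end Cfsg.Agent.Lib.Helper45OspUProd
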