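import Mathlib
import Cfsg.Agent.Lib.Helper45OspDefs2
import Cfsg.Agent.Lib.Helper45OspComb
import Cfsg.Agent.Lib.Helper45OspUId
import Cfsg.Agent.Lib.Helper45OspURefl
import Cfsg.Agent.Lib.Helper45OspUP4
import Cfsg.Agent.Lib.Helper45OspUProd
import Cfsg.Agent.Lib.Helper45OspTori
import Cfsg.Agent.Lib.Helper45OspProd
import Cfsg.Agent.Lib.Helper45OspArith

set_option autoImplicit false

namespace Cfsg.Agent.Lib.Helper45OspTable2

open Module Cfsg.Agent.Lib.Helper45Form Cfsg.Agent.Lib.Helper45OspDefs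
  Cfsg.Agent.Lib.Helper45OspDefs2
  Cfsg.Agent.Lib.Helper45OspComb
  Cfsg.Agent.Lib.Helper45OspUId
  Cfsg.Agent.Lib.Helper45OspURefl
  Cfsg.Agent.Lib.Helper45OspUP4
  Cfsg.Agent.Lib.Helper45OspUProd
  Cfsg.Agent.Lib.Helper45OspTori
  Cfsg.Agent.Lib.Helper45OspProd
  Cfsg.Agent.Lib.Helper45OspArith
  Cfsg.Agent.Lib.Helper7Norm2

universe u

/-- piece `Table2` -/
theorem table2 {F : Type u} [Field F] [Fintype F] [CharP F 2] (a b : F) (hab : Aniso a b) (q : ℕ)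
    (hq : q = Fintype.card F) :
    ∀ E ∈ T4 (q - 1) (q + 1) (q ^ 2 + 1) (q ^ 2 + q + 1) (q ^ 2 - q + 1) (q ^ 4 + 1),
      (∃ M, E ∣ M ∧ Odd M ∧ Model.{u, 0} F M (-1) 4) ∨
        (∃ M, E ∣ 2 * M ∧ ModelK.{u, u} F M) := by
  have heven : Even q := by
    rw [hq]
    exact Nat.even_iff.2 (FiniteField.even_card_of_char_two
      (CharP.ringChar_of_prime_eq_zero Nat.prime_two (CharP.cast_eq_zero F 2)))
  have hq2 : 2 ≤ q := by rw [hq]; exact Fintype.one_lt_card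
  have hq1 : 1 ≤ q := by omega
  have H : ∀ d, 1 ≤ d → Model.{u, 0} F (q ^ d - 1) 1 d := fun d hd => by rw [hq]; exact hyp F d hd
  have L : ∀ d, 1 ≤ d → Model.{u, 0} F (q ^ d + 1) (-1) d := fun d hd => by rw [hq]; exact fld F d hd
  have H1 : Model.{u, 0} F (q - 1) 1 1 := by simpa using H 1 le_rfl
  have L1 : Model.{u, 0} F (q + 1) (-1) 1 := by simpa using L 1 le_rfl
  have oa : Odd (q - 1) := Nat.Even.sub_odd hq1 heven odd_one
  have ob : Odd (q + 1) := heven.add_one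
  have oc : Odd (q ^ 2 + 1) := (heven.pow_of_ne_zero two_ne_zero).add_one
  have o2m : Odd (q ^ 2 - 1) :=
    Nat.Even.sub_odd (Nat.one_le_pow _ _ (by omega)) (heven.pow_of_ne_zero two_ne_zero) odd_one
  have o3p : Odd (q ^ 3 + 1) := (heven.pow_of_ne_zero three_ne_zero).add_one
  have o3m : Odd (q ^ 3 - 1) :=
    Nat.Even.sub_odd (Nat.one_le_pow _ _ (by omega)) (heven.pow_of_ne_zero three_ne_zero) odd_one
  have o4p : Odd (q ^ 4 + 1) := (heven.pow_of_ne_zero four_ne_zero).add_one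
  have olcm : ∀ x y : ℕ, Odd x → Odd y → Odd (Nat.lcm x y) := fun x y hx hy =>
    Odd.of_dvd_nat (hx.mul hy) (Nat.lcm_dvd_mul x y)
  have cop : ∀ (x y : ℕ), Nat.Coprime x y → x * y ∣ Nat.lcm x y := fun x y h =>
    Nat.Coprime.mul_dvd_of_dvd_of_dvd h (Nat.dvd_lcm_left _ _) (Nat.dvd_lcm_right _ _)
  have U11 : UMod.{u, u} F 1 (1 + 1) (1 * 1) (1 + 1) :=
    umod_prod 1 1 1 1 1 1 1 1 le_rfl (um1P F) (um1P F)
  have U21M : UMod.{u, u} F 2 (1 + 1) (1 * (-1)) (2 + 1) :=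
    umod_prod 2 1 1 1 1 (-1) 2 1 (by norm_num) (um2 F) (um1M F a b hab)
  have U21P : UMod.{u, u} F 2 (1 + 1) (1 * 1) (2 + 1) :=
    umod_prod 2 1 1 1 1 1 2 1 (by norm_num) (um2 F) (um1P F)
  intro E hE
  simp only [T4, List.mem_cons, List.not_mem_nil, or_false] at hE
  rcases hE with rfl | rfl | rfl | rfl | rfl | rfl | rfl | rfl | rfl | rfl | rfl | rfl
  · exact Or.inl ⟨_, dvd_rfl, o4p, L 4 (by norm_num)⟩
  · refine Or.inl ⟨_, ?_, olcm _ _ oc o2m,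
      model_prod _ _ (-1) 1 2 2 (L 2 (by norm_num)) (H 2 (by norm_num))⟩
    have h1 : Nat.Coprime (q ^ 2 + 1) (q ^ 2 - 1) := by
      rw [← id2 q hq1]
      exact (cop_c_a q heven hq2).mul_right (cop_c_b q heven hq2)
    rw [id2 q hq1, mul_comm]
    exact cop _ _ h1
  · refine Or.inl ⟨_, ?_, olcm _ _ o3p oa, model_prod _ _ (-1) 1 3 1 (L 3 (by norm_num)) H1⟩
    rw [id3p q hq1]
    exact cop _ _ (cop_3p q heven hq2)
  · refine Or.inl ⟨_, ?_, olcm _ _ o3m ob, model_prod _ _ 1 (-1) 3 1 (H 3 (by norm_num)) L1⟩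
    rw [id3m q hq1]
    exact cop _ _ (cop_3m q heven hq2)
  · refine Or.inr ⟨_, ?_, comb _ o3p (-1) 1 3 1 0 2 (by norm_num) (by norm_num) (by norm_num)
      (L 3 (by norm_num)) (um0P F)⟩
    rw [id3p q hq1, pow_zero, one_mul]
  · refine Or.inr ⟨_, ?_, comb _ o3m 1 (-1) 3 1 0 2 (by norm_num) (by norm_num) (by norm_num)
      (H 3 (by norm_num)) (um0M F a b hab)⟩
    rw [id3m q hq1, pow_zero, one_mul]
  · refine Or.inr ⟨_, ?_, comb _ (olcm _ _ oc oa) _ 1 _ 1 0 2 (by norm_num) (by norm_num)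
      (by norm_num) (model_prod _ _ (-1) 1 2 1 (L 2 (by norm_num)) H1) (um0P F)⟩
    rw [pow_zero, one_mul]
    exact Nat.mul_dvd_mul_left 2 (cop _ _ (cop_c_a q heven hq2))
  · refine Or.inr ⟨_, ?_, comb _ (olcm _ _ oc ob) _ (-1) _ 1 0 2 (by norm_num) (by norm_num)
      (by norm_num) (model_prod _ _ (-1) (-1) 2 1 (L 2 (by norm_num)) L1) (um0M F a b hab)⟩
    rw [pow_zero, one_mul]
    exact Nat.mul_dvd_mul_left 2 (cop _ _ (cop_c_b q heven hq2))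
  · refine Or.inr ⟨_, ?_, comb _ oc (-1) _ 2 _ 1 _ (by norm_num) (by norm_num) (by norm_num)
      (L 2 (by norm_num)) U11⟩
    exact ⟨1, by ring⟩
  · refine Or.inr ⟨_, ?_, comb _ (olcm _ _ oa ob) _ _ _ _ 1 _ (by norm_num) (by norm_num)
      (by norm_num) (model_prod _ _ 1 (-1) 1 1 H1 L1) U11⟩
    have h := cop _ _ (cop_a_b q heven hq2)
    obtain ⟨c, hc⟩ := h
    rw [hc]
    exact ⟨c, by ring⟩
  · refine Or.inr ⟨_, ?_, comb _ oa 1 _ 1 _ 2 _ (by norm_num) (by norm_num) (by norm_num)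
      H1 U21M⟩
    exact ⟨1, by ring⟩
  · refine Or.inr ⟨_, ?_, comb _ ob (-1) _ 1 _ 2 _ (by norm_num) (by norm_num) (by norm_num)
      L1 U21P⟩
    exact ⟨1, by ring⟩

end Cfsg.Agent.Lib.Helper45OspTable2
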