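import Mathlib
import Cfsg.Agent.Lib.Helper45OspDefs2
import Cfsg.Agent.Lib.Helper45OspNmLem
import Cfsg.Agent.Lib.Helper45OspFxLem
import Cfsg.Agent.Lib.Helper45OspStd
import Cfsg.Agent.Lib.Helper45OspRootless

set_option autoImplicit false

namespace Cfsg.Agent.Lib.Helper45OspTrK

open Module Cfsg.Agent.Lib.Helper45Form Cfsg.Agent.Lib.Helper45OspDefs
  Cfsg.Agent.Lib.Helper45OspDefs2
  Cfsg.Agent.Lib.Helper45OspNmLem
  Cfsg.Agent.Lib.Helper45OspFxLem
  Cfsg.Agent.Lib.Helper45OspStd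
  Cfsg.Agent.Lib.Helper45OspRootless

universe u w w'

/-- piece `TrK` : transport of an isometry between two minus type spaces of the same dimension -/
theorem transportK {F : Type u} [Field F] [Fintype F] [CharP F 2] {W : Type w} [AddCommGroup W]
    [Module F W] [Module.Finite F W] {W' : Type w'} [AddCommGroup W'] [Module F W']
    [Module.Finite F W'] (Q : QuadraticForm F W) (Q' : QuadraticForm F W') (m : ℕ)
    (hQ : Typ (-1) m Q) (hQ' : Typ (-1) m Q') (h : End F W) (i : ∀ x, Q (h x) = Q x) :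
    ∃ g : End F W', (∀ x, Q' (g x) = Q' x) ∧ (∀ j : ℕ, g ^ j = 1 ↔ h ^ j = 1) ∧ fx g = fx h ∧
      ∀ n, Nm g n = 0 ↔ Nm h n = 0 := by
  obtain ⟨ζ, hζ⟩ := exists_rootless F
  have hab := Cfsg.Agent.Lib.Helper48QuadType.aniso_of_rootless ζ hζ
  obtain ⟨T, hT⟩ := (isom_QM_of_typ Q m hQ 1 ζ hab).trans (isom_QM_of_typ Q' m hQ' 1 ζ hab).symm
  refine ⟨T.conj h, ?_, ?_, fx_conj T h, ?_⟩
  · intro x
    rw [LinearEquiv.conj_apply_apply]
    have h1 := hT (h (T.symm x))
    have h2 := hT (T.symm x)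
    rw [LinearEquiv.apply_symm_apply] at h2
    exact h1.trans ((i _).trans h2.symm)
  · intro j
    rw [← Cfsg.Agent.Lib.Helper45OspNmLem.conj_pow]
    have h1 : T.conj (1 : End F W) = 1 := by
      ext x
      simp [LinearEquiv.conj_apply]
    rw [← h1]
    exact T.conj.injective.eq_iff
  · intro n
    rw [nm_conj]
    exact map_eq_zero_iff _ T.conj.injective

end Cfsg.Agent.Lib.Helper45OspTrK
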