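import Mathlib
import Cfsg.Agent.Lib.Helper45OspDefs2
import Cfsg.Agent.Lib.Helper45OspNil
import Cfsg.Agent.Lib.Helper45OspNmLem
import Cfsg.Agent.Lib.Helper45OspGeo
import Cfsg.Agent.Lib.Helper45OspPowTwo

set_option autoImplicit false

namespace Cfsg.Agent.Lib.Helper45OspUnip

open Module Cfsg.Agent.Lib.Helper45Form Cfsg.Agent.Lib.Helper45OspDefs
  Cfsg.Agent.Lib.Helper45OspDefs2
  Cfsg.Agent.Lib.Helper45OspNil
  Cfsg.Agent.Lib.Helper45OspNmLem
  Cfsg.Agent.Lib.Helper45OspGeo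
  Cfsg.Agent.Lib.Helper45OspPowTwo

universe u w

/-- piece `Unip` : a unipotent `u` with `u^n = 1`, `n = 2^k n'`, non-zero norm and even dimensional
fixed space lives in dimension `> 2^k` -/
theorem unip_bound {F : Type u} [Field F] [CharP F 2] {V : Type w} [AddCommGroup V] [Module F V]
    [Module.Finite F V] (y : End F V) (r : ℕ) (hr : (y - 1) ^ r = 0) (k n' : ℕ) (hn' : Odd n')
    (hyn : y ^ (2 ^ k * n') = 1) (hN : Nm y (2 ^ k * n') ≠ 0) (hev : Even (fx y)) :
    y ^ 2 ^ k = 1 ∧ 2 ^ k + 1 ≤ finrank F V := by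
  have h1 : y ^ 2 ^ r = 1 := pow_two y r r (Nat.lt_two_pow_self).le hr
  have hd1 : orderOf y ∣ 2 ^ r := orderOf_dvd_of_pow_eq_one h1
  have hd2 : orderOf y ∣ 2 ^ k * n' := orderOf_dvd_of_pow_eq_one hyn
  have hcop : Nat.Coprime (orderOf y) n' :=
    Nat.Coprime.coprime_dvd_left hd1 (Nat.Coprime.pow_left r (Nat.coprime_two_left.2 hn'))
  have hd3 : orderOf y ∣ 2 ^ k := hcop.dvd_of_dvd_mul_right hd2
  have hyk : y ^ 2 ^ k = 1 := orderOf_dvd_iff_pow_eq_one.1 hd3
  refine ⟨hyk, ?_⟩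
  rw [nm_odd y (2 ^ k) n' hyk hn', nm_two_pow] at hN
  have hb := nil_bound (y - 1) ⟨r, hr⟩ (2 ^ k - 1) hN
  have hfx : fx y ≠ 0 := by
    intro h0
    have hker : LinearMap.ker (y - 1) = ⊥ := Submodule.finrank_eq_zero.1 h0
    have hinj : Function.Injective ⇑(y - 1 : End F V) := LinearMap.ker_eq_bot.1 hker
    have hinjr : Function.Injective ⇑((y - 1 : End F V) ^ r) := by
      rw [Module.End.coe_pow]
      exact hinj.iterate r
    have hall : ∀ v : V, v = 0 := by
      intro v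
      apply hinjr
      rw [hr]; simp
    apply hN
    ext v
    exact (hall _).trans (hall _).symm
  have hfx2 : 2 ≤ finrank F (LinearMap.ker (y - 1)) := by
    obtain ⟨c, hc⟩ := hev
    have : fx y = finrank F (LinearMap.ker (y - 1)) := rfl
    omega
  have hpos : 0 < 2 ^ k := by positivity
  omega

end Cfsg.Agent.Lib.Helper45OspUnip
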