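import Mathlib
import Cfsg.Agent.Lib.Helper45PSL2

set_option autoImplicit false

namespace Cfsg.Agent.Lib.Helper45PSL3

open Module Polynomial Matrix Cfsg.Agent.Lib.Helper45ProjOrder Cfsg.Agent.Lib.Helper45Semisimple
  Cfsg.Agent.Lib.Helper45PSL Cfsg.Agent.Lib.Helper45PSL2

universe u v w

section Arith

theorem gcd_dvd_phi3 (q : ℕ) (hq : 1 ≤ q) : Nat.gcd 3 (q - 1) ∣ q ^ 2 + q + 1 := by
  obtain ⟨t, rfl⟩ : ∃ t, q = t + 1 := ⟨q - 1, by omega⟩
  rw [Nat.add_sub_cancel, show (t + 1) ^ 2 + (t + 1) + 1 = t * (t + 3) + 3 by ring]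
  exact Nat.dvd_add ((Nat.gcd_dvd_right 3 t).mul_right _) (Nat.gcd_dvd_left 3 t)

theorem gcd_dvd_add_two (q : ℕ) (hq : 1 ≤ q) : Nat.gcd 3 (q - 1) ∣ q + 2 := by
  obtain ⟨t, rfl⟩ : ∃ t, q = t + 1 := ⟨q - 1, by omega⟩
  rw [Nat.add_sub_cancel, show t + 1 + 2 = t + 3 by ring]
  exact Nat.dvd_add (Nat.gcd_dvd_right 3 t) (Nat.gcd_dvd_left 3 t)

theorem sq_sub_one' (q : ℕ) : q ^ 2 - 1 = (q - 1) * (q + 1) := by
  rw [mul_comm, ← Nat.sq_sub_sq, one_pow]

theorem gcd_dvd_sq_sub_one' (q : ℕ) : Nat.gcd 3 (q - 1) ∣ q ^ 2 - 1 := by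
  rw [sq_sub_one']
  exact (Nat.gcd_dvd_right 3 (q - 1)).mul_right _

end Arith

section Upper

variable {F : Type u} [Field F] [Fintype F]

local notation "q" => Fintype.card F
local notation "d" => Nat.gcd 3 (Fintype.card F - 1)

theorem cubic_irred (χ : F[X]) (hm : χ.Monic) (hdeg : χ.natDegree = 3) (h0 : χ.coeff 0 = -1)
    (hirr : Irreducible χ) : ∃ μ : F, χ ∣ X ^ ((q ^ 2 + q + 1) / d) - C μ := by
  have : Fact (Irreducible χ) := ⟨hirr⟩
  have := finite_adjoinRoot χ hirr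
  have : Finite (AdjoinRoot χ) := Module.finite_of_finite F
  have hq1 : 1 ≤ q := Fintype.card_pos
  set α := AdjoinRoot.root χ with hα
  have hfin : finrank F (AdjoinRoot χ) = 3 := by
    rw [(AdjoinRoot.powerBasis hirr.ne_zero).finrank, AdjoinRoot.powerBasis_dim, hdeg]
  have hnorm : Algebra.norm F α = 1 := by
    rw [hα, Cfsg.Agent.Lib.Helper45SU.norm_root_eq χ hirr hm, hdeg, h0]; norm_num
  have h1 : α ^ (q ^ 2 + q + 1) = 1 := by
    have := FiniteField.algebraMap_norm_eq_pow_sum (K := F) (L := AdjoinRoot χ) (x := α)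
    rw [hnorm, map_one, hfin, Nat.card_eq_fintype_card, Finset.sum_range_succ,
      Finset.sum_range_succ, Finset.sum_range_succ, Finset.sum_range_zero] at this
    rw [this]
    congr 1
    ring
  set β := α ^ ((q ^ 2 + q + 1) / d) with hβ
  have h2 : β ^ d = 1 := by
    rw [hβ, ← pow_mul, Nat.div_mul_cancel (gcd_dvd_phi3 q hq1), h1]
  have h3 : β ^ (q - 1) = 1 := by
    obtain ⟨e, he⟩ := Nat.gcd_dvd_right 3 (q - 1)
    rw [he, pow_mul, h2, one_pow]
  obtain ⟨μ, hμ⟩ := Cfsg.Agent.Lib.Helper45SU.mem_range_of_pow_card (F := F) (AdjoinRoot χ) β (by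
    conv_lhs => rw [← Nat.sub_add_cancel hq1]
    rw [pow_succ, h3, one_mul])
  refine ⟨μ, ?_⟩
  rw [dvd_iff_root]
  simp only [map_sub, map_pow, aeval_X, aeval_C]
  rw [← hα, ← hβ, hμ, sub_self]

theorem quad_irred (ψ : F[X]) (hm : ψ.Monic) (hdeg : ψ.natDegree = 2) (a : F)
    (h0 : a * ψ.coeff 0 = 1) (hirr : Irreducible ψ) :
    ∃ μ : F, (X - C a) * ψ ∣ X ^ ((q ^ 2 - 1) / d) - C μ := by
  have : Fact (Irreducible ψ) := ⟨hirr⟩
  have := finite_adjoinRoot ψ hirr
  have : Finite (AdjoinRoot ψ) := Module.finite_of_finite F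
  have hq1 : 1 ≤ q := Fintype.card_pos
  set α := AdjoinRoot.root ψ with hα
  have hfin : finrank F (AdjoinRoot ψ) = 2 := by
    rw [(AdjoinRoot.powerBasis hirr.ne_zero).finrank, AdjoinRoot.powerBasis_dim, hdeg]
  have hnorm : Algebra.norm F α = ψ.coeff 0 := by
    rw [hα, Cfsg.Agent.Lib.Helper45SU.norm_root_eq ψ hirr hm, hdeg]; norm_num
  have h1 : algebraMap F (AdjoinRoot ψ) (ψ.coeff 0) = α ^ (q + 1) := by
    have := FiniteField.algebraMap_norm_eq_pow_sum (K := F) (L := AdjoinRoot ψ) (x := α)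
    rw [hnorm, hfin, Nat.card_eq_fintype_card, Finset.sum_range_succ,
      Finset.sum_range_succ, Finset.sum_range_zero] at this
    rw [this]
    congr 1
    ring
  have hα0 : α ≠ 0 := by
    intro h
    rw [h, zero_pow (by omega)] at h1
    have h2 : ψ.coeff 0 = 0 := (algebraMap F (AdjoinRoot ψ)).injective (by rw [h1, map_zero])
    rw [h2, mul_zero] at h0
    exact zero_ne_one h0
  have hcard : α ^ (q ^ 2 - 1) = 1 := by
    have := Fintype.ofFinite (AdjoinRoot ψ)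
    have h2 := FiniteField.pow_card_sub_one_eq_one α hα0
    rwa [← Nat.card_eq_fintype_card, natCard_adjoinRoot ψ hirr.ne_zero, hdeg,
      Nat.card_eq_fintype_card] at h2
  set j := (q ^ 2 - 1) / d with hj
  refine ⟨a ^ j, ?_⟩
  have hco : IsCoprime (X - C a) ψ := by
    rw [(irreducible_X_sub_C a).coprime_iff_not_dvd]
    intro h
    have h2 := (irreducible_X_sub_C a).dvd_symm hirr h
    have h3 := natDegree_le_of_dvd h2 (X_sub_C_ne_zero a)
    rw [natDegree_X_sub_C, hdeg] at h3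
    omega
  apply hco.mul_dvd
  · rw [dvd_iff_isRoot, IsRoot, eval_sub, eval_pow, eval_X, eval_C, sub_self]
  · rw [dvd_iff_root]
    simp only [map_sub, map_pow, aeval_X, aeval_C]
    rw [← hα, sub_eq_zero]
    have h4 : algebraMap F (AdjoinRoot ψ) a * α ^ (q + 1) = 1 := by
      rw [← h1, ← map_mul, h0, map_one]
    have h5 : α ^ ((q + 2) * j) = 1 := by
      obtain ⟨e, he⟩ := gcd_dvd_add_two q hq1
      rw [he, mul_assoc, mul_comm, mul_assoc, mul_comm j, hj,
        Nat.mul_div_cancel' (gcd_dvd_sq_sub_one' q), mul_comm, pow_mul, hcard, one_pow]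
    calc α ^ j = α ^ j * (algebraMap F (AdjoinRoot ψ) a * α ^ (q + 1)) ^ j := by
          rw [h4, one_pow, mul_one]
      _ = algebraMap F (AdjoinRoot ψ) a ^ j * α ^ ((q + 2) * j) := by
          rw [mul_pow, ← pow_mul, add_mul, add_mul, pow_add, pow_add, one_mul, two_mul, pow_add]
          ring
      _ = _ := by rw [h5, mul_one]

theorem pow_card_sub_one' (a : F) (ha : a ≠ 0) : a ^ (q - 1) = 1 :=
  FiniteField.pow_card_sub_one_eq_one a ha

omit [Fintype F] in
theorem X_sub_C_coprime (a b : F) (h : a ≠ b) : IsCoprime (X - C a) (X - C b) :=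
  isCoprime_X_sub_C_of_isUnit_sub (sub_ne_zero.2 h).isUnit

theorem split_distinct (a b c : F) (ha : a ≠ 0) (hb : b ≠ 0) (hc : c ≠ 0) (hab : a ≠ b)
    (hac : a ≠ c) (hbc : b ≠ c) : (X - C a) * (X - C b) * (X - C c) ∣ X ^ (q - 1) - C (1 : F) := by
  have key : ∀ x : F, x ≠ 0 → X - C x ∣ X ^ (q - 1) - C (1 : F) := fun x hx => by
    rw [dvd_iff_isRoot, IsRoot, eval_sub, eval_pow, eval_X, eval_C, pow_card_sub_one' x hx, sub_self]
  exact (IsCoprime.mul_left (X_sub_C_coprime a c hac) (X_sub_C_coprime b c hbc)).mul_dvd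
    ((X_sub_C_coprime a b hab).mul_dvd (key a ha) (key b hb)) (key c hc)

omit [Field F] in
theorem three_mul_div' : 3 * ((q - 1) / d) = (3 / d) * (q - 1) := by
  obtain ⟨s, hs⟩ := Nat.gcd_dvd_left 3 (q - 1)
  obtain ⟨t, ht⟩ := Nat.gcd_dvd_right 3 (q - 1)
  have hpos : 0 < d := Nat.gcd_pos_of_pos_left _ (by norm_num)
  set D := d with hD
  have h1 : (q - 1) / D = t := by rw [ht]; exact Nat.mul_div_cancel_left t hpos
  have h2 : 3 / D = s := by
    conv_lhs => rw [hs]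
    exact Nat.mul_div_cancel_left s hpos
  rw [h1, h2]
  conv_lhs => rw [hs]
  rw [ht]
  ring

theorem split_double (p : ℕ) [Fact p.Prime] [CharP F p] (a c : F) (h : a * a * c = 1)
    (hac : a ≠ c ∨ p ≠ 2) :
    ∃ μ : F, (X - C a) * (X - C a) * (X - C c) ∣ X ^ (p * ((q - 1) / d)) - C μ := by
  have hp : p.Prime := Fact.out
  have ha0 : a ≠ 0 := by
    rintro rfl
    simp at h
  set e := (q - 1) / d with he
  refine ⟨a ^ (p * e), ?_⟩
  have h1 : (X - C a) ^ p ∣ X ^ (p * e) - C (a ^ (p * e)) := by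
    rw [sub_pow_char, ← C_pow, pow_mul, pow_mul, C_pow (a := a ^ p)]
    exact sub_dvd_pow_sub_pow _ _ e
  by_cases hac' : a = c
  · subst hac'
    have hp3 : 3 ≤ p := by
      have := hp.two_le
      rcases hac with h' | h'
      · exact absurd rfl h'
      · omega
    refine dvd_trans ?_ h1
    rw [← sq, ← pow_succ]
    exact pow_dvd_pow _ hp3
  · apply (IsCoprime.mul_left (X_sub_C_coprime a c hac') (X_sub_C_coprime a c hac')).mul_dvd
    · refine dvd_trans ?_ h1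
      rw [← sq]
      exact pow_dvd_pow _ hp.two_le
    · rw [dvd_iff_isRoot, IsRoot, eval_sub, eval_pow, eval_X, eval_C, sub_eq_zero]
      have h3 : a ^ (3 * (p * e)) = 1 := by
        rw [show 3 * (p * e) = (3 * e) * p by ring, he, three_mul_div', mul_comm (3 / d), pow_mul,
          pow_mul, pow_card_sub_one' a ha0, one_pow, one_pow]
      calc c ^ (p * e) = c ^ (p * e) * a ^ (3 * (p * e)) := by rw [h3, mul_one]
        _ = (a * a * c) ^ (p * e) * a ^ (p * e) := by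
            rw [mul_pow, mul_pow, show 3 * (p * e) = p * e + p * e + p * e by ring, pow_add, pow_add]
            ring
        _ = _ := by rw [h, one_pow, one_mul]

omit [Fintype F] in
theorem split_triple_two [CharP F 2] (a : F) :
    (X - C a) * (X - C a) * (X - C a) ∣ X ^ 4 - C (a ^ 4) := by
  have : Fact (Nat.Prime 2) := ⟨Nat.prime_two⟩
  have h1 : (X - C a) ^ 2 ^ 2 = X ^ 4 - C (a ^ 4) := by
    rw [sub_pow_char_pow, ← C_pow]
    norm_num
  rw [← h1, ← sq, ← pow_succ]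
  exact pow_dvd_pow _ (by norm_num)

theorem cubic_main (p : ℕ) [Fact p.Prime] [CharP F p] (χ : F[X]) (hm : χ.Monic)
    (hdeg : χ.natDegree = 3) (h0 : χ.coeff 0 = -1) :
    ∃ (j : ℕ) (μ : F), χ ∣ X ^ j - C μ ∧ (j = (q ^ 2 + q + 1) / d ∨ j = (q ^ 2 - 1) / d ∨
      j = q - 1 ∨ j = p * ((q - 1) / d) ∨ (p = 2 ∧ j = 4)) := by
  by_cases hirr : Irreducible χ
  · obtain ⟨μ, hμ⟩ := cubic_irred χ hm hdeg h0 hirr
    exact ⟨_, μ, hμ, Or.inl rfl⟩
  rw [hm.irreducible_iff_roots_eq_zero_of_degree_le_three (by omega) (by omega),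
    Multiset.eq_zero_iff_forall_notMem] at hirr
  push Not at hirr
  obtain ⟨a, ha⟩ := hirr
  obtain ⟨ψ, hψ⟩ := dvd_iff_isRoot.2 (isRoot_of_mem_roots ha)
  have hψm : ψ.Monic := (monic_X_sub_C a).of_mul_monic_left (hψ ▸ hm)
  have hψd : ψ.natDegree = 2 := by
    have := congrArg natDegree hψ
    rw [natDegree_mul (X_sub_C_ne_zero a) hψm.ne_zero, natDegree_X_sub_C, hdeg] at this
    omega
  have hψ0 : a * ψ.coeff 0 = 1 := by
    have := congrArg (eval 0) hψ
    rw [← coeff_zero_eq_eval_zero, h0, eval_mul, eval_sub, eval_X, eval_C,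
      ← coeff_zero_eq_eval_zero] at this
    linear_combination this
  by_cases hirr2 : Irreducible ψ
  · obtain ⟨μ, hμ⟩ := quad_irred ψ hψm hψd a hψ0 hirr2
    exact ⟨_, μ, hψ ▸ hμ, Or.inr (Or.inl rfl)⟩
  rw [hψm.irreducible_iff_roots_eq_zero_of_degree_le_three (by omega) (by omega),
    Multiset.eq_zero_iff_forall_notMem] at hirr2
  push Not at hirr2
  obtain ⟨b, hb⟩ := hirr2
  obtain ⟨φ, hφ⟩ := dvd_iff_isRoot.2 (isRoot_of_mem_roots hb)
  have hφm : φ.Monic := (monic_X_sub_C b).of_mul_monic_left (hφ ▸ hψm)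
  have hφd : φ.natDegree = 1 := by
    have := congrArg natDegree hφ
    rw [natDegree_mul (X_sub_C_ne_zero b) hφm.ne_zero, natDegree_X_sub_C, hψd] at this
    omega
  obtain ⟨c, hc⟩ : ∃ c, φ = X - C c := ⟨-φ.coeff 0, by
    rw [C_neg, sub_neg_eq_add]; exact hφm.eq_X_add_C hφd⟩
  have hχ : χ = (X - C a) * (X - C b) * (X - C c) := by rw [hψ, hφ, hc, mul_assoc]
  have habc : a * b * c = 1 := by
    rw [hφ, hc, coeff_zero_eq_eval_zero, eval_mul, eval_sub, eval_sub, eval_X, eval_C, eval_C] at hψ0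
    linear_combination hψ0
  have ha0 : a ≠ 0 := by rintro rfl; simp at habc
  have hb0 : b ≠ 0 := by rintro rfl; simp at habc
  have hc0 : c ≠ 0 := by rintro rfl; simp at habc
  by_cases hab : a = b
  · subst hab
    by_cases hh : a ≠ c ∨ p ≠ 2
    · obtain ⟨μ, hμ⟩ := split_double p a c habc hh
      exact ⟨_, μ, hχ ▸ hμ, Or.inr (Or.inr (Or.inr (Or.inl rfl)))⟩
    · push Not at hh
      obtain ⟨rfl, rfl⟩ := hh
      exact ⟨4, _, hχ ▸ split_triple_two a, Or.inr (Or.inr (Or.inr (Or.inr ⟨rfl, rfl⟩)))⟩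
  by_cases hac : a = c
  · subst hac
    obtain ⟨μ, hμ⟩ := split_double p a b (by rw [← habc]; ring) (Or.inl hab)
    refine ⟨_, μ, ?_, Or.inr (Or.inr (Or.inr (Or.inl rfl)))⟩
    rw [hχ, show (X - C a) * (X - C b) * (X - C a) = (X - C a) * (X - C a) * (X - C b) by ring]
    exact hμ
  by_cases hbc : b = c
  · subst hbc
    obtain ⟨μ, hμ⟩ := split_double p b a (by rw [← habc]; ring) (Or.inl (Ne.symm hab))
    refine ⟨_, μ, ?_, Or.inr (Or.inr (Or.inr (Or.inl rfl)))⟩
    rw [hχ, show (X - C a) * (X - C b) * (X - C b) = (X - C b) * (X - C b) * (X - C a) by ring]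
    exact hμ
  · exact ⟨_, 1, hχ ▸ split_distinct a b c ha0 hb0 hc0 hab hac hbc, Or.inr (Or.inr (Or.inl rfl))⟩

theorem orderOf_dvd (p : ℕ) [Fact p.Prime] [CharP F p]
    (x : Matrix.ProjectiveSpecialLinearGroup (Fin 3) F) :
    orderOf x ∣ (q ^ 2 + q + 1) / d ∨ orderOf x ∣ (q ^ 2 - 1) / d ∨
      orderOf x ∣ q - 1 ∨ orderOf x ∣ p * ((q - 1) / d) ∨ (p = 2 ∧ orderOf x ∣ 4) := by
  obtain ⟨g, rfl⟩ := QuotientGroup.mk_surjective x
  set G : End F (Fin 3 → F) := Matrix.toLin' (g : Matrix (Fin 3) (Fin 3) F) with hG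
  have hdet : LinearMap.det G = 1 := det_toLin'_sl g
  have hfr : finrank F (Fin 3 → F) = 3 := Module.finrank_fin_fun F
  obtain ⟨j, μ, hdvd, hj⟩ := cubic_main p G.charpoly G.charpoly_monic
    (by rw [LinearMap.charpoly_natDegree, hfr]) (by
      have := LinearMap.det_eq_sign_charpoly_coeff G
      rw [hdet, hfr] at this
      linear_combination this)
  have key : orderOf (QuotientGroup.mk g : Matrix.ProjectiveSpecialLinearGroup (Fin 3) F) ∣ j := by
    apply orderOf_dvd_of_pow_eq_one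
    rw [proj_pow_eq_one_iff_lin]
    refine ⟨μ, ?_⟩
    obtain ⟨R, hR⟩ := hdvd
    have h4 := congrArg (aeval G) hR
    rw [map_mul, LinearMap.aeval_self_charpoly, zero_mul, map_sub, map_pow, aeval_X, aeval_C,
      sub_eq_zero] at h4
    rw [h4, Algebra.algebraMap_eq_smul_one]
  rcases hj with h | h | h | h | ⟨h, h'⟩
  · exact Or.inl (h ▸ key)
  · exact Or.inr (Or.inl (h ▸ key))
  · exact Or.inr (Or.inr (Or.inl (h ▸ key)))
  · exact Or.inr (Or.inr (Or.inr (Or.inl (h ▸ key))))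
  · exact Or.inr (Or.inr (Or.inr (Or.inr ⟨h, h' ▸ key⟩)))

end Upper

section Lower

variable {F : Type u} [Field F] [Fintype F]

local notation "q" => Fintype.card F
local notation "d" => Nat.gcd 3 (Fintype.card F - 1)

theorem div_gcd_dvd' (a n j : ℕ) (h1 : n ∣ a * j) (b : ℕ) (h2 : n ∣ b * j) (ha : 0 < a)
    (hd : Nat.gcd a b ∣ n) : n / Nat.gcd a b ∣ j := by
  rw [Nat.div_dvd_iff_dvd_mul hd (Nat.gcd_pos_of_pos_left _ ha), ← Nat.gcd_mul_right]
  exact Nat.dvd_gcd h1 h2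

omit [Fintype F] in
theorem exists_of_alg {A : Type v} [CommRing A] [Algebra F A] [Module.Finite F A]
    (hdim : finrank F A = 3) (w : A) (hw : Algebra.norm F w = 1) (t : ℕ)
    (ht : ∀ (j : ℕ) (c : F), w ^ j = algebraMap F A c → t ∣ j) :
    ∃ y : Matrix.ProjectiveSpecialLinearGroup (Fin 3) F, t ∣ orderOf y := by
  obtain ⟨y, hy⟩ := exists_psl_of_algebra hdim w hw
  obtain ⟨c, hc⟩ := (hy _).1 (pow_orderOf_eq_one y)
  exact ⟨y, ht _ c hc⟩

theorem exists_E3 : ∃ y : Matrix.ProjectiveSpecialLinearGroup (Fin 3) F, (q - 1) ∣ orderOf y := by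
  obtain ⟨a, ha0, ha1, ha⟩ := exists_elt (F := F) (q - 1) dvd_rfl
  apply exists_of_alg (A := F × (F × F)) (by simp [Module.finrank_prod]) (a, (a⁻¹, 1))
  · rw [norm_prod_mk', norm_prod_mk', Algebra.norm_self, MonoidHom.id_apply, MonoidHom.id_apply,
      MonoidHom.id_apply, mul_one, mul_inv_cancel₀ ha0]
  · intro j c hj
    have e1 : a ^ j = c := congrArg Prod.fst hj
    have e3 : (1 : F) ^ j = c := congrArg (fun x => x.2.2) hj
    apply ha
    rw [e1, ← e3, one_pow]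

theorem exists_E4 (p : ℕ) [Fact p.Prime] [CharP F p] :
    ∃ y : Matrix.ProjectiveSpecialLinearGroup (Fin 3) F, p * ((q - 1) / d) ∣ orderOf y := by
  have hp : p.Prime := Fact.out
  obtain ⟨l, hl0, hl1, hl⟩ := exists_elt (F := F) (q - 1) dvd_rfl
  have hl20 : l ^ 2 ≠ 0 := pow_ne_zero _ hl0
  apply exists_of_alg (A := JA F 2 × F)
    (by rw [Module.finrank_prod, ja_finrank, Module.finrank_self])
    (algebraMap F _ l * ju F 2, (l ^ 2)⁻¹)
    (by rw [norm_prod_mk', map_mul, ju_norm, Algebra.norm_algebraMap, ja_finrank, Algebra.norm_self,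
      MonoidHom.id_apply, mul_one, mul_inv_cancel₀ hl20])
  intro j c hc
  have e1 : (algebraMap F (JA F 2) l * ju F 2) ^ j = algebraMap F _ c := congrArg Prod.fst hc
  have e2 : ((l ^ 2)⁻¹) ^ j = c := congrArg Prod.snd hc
  have hlj0 : l ^ j ≠ 0 := pow_ne_zero _ hl0
  have e3 : ju F 2 ^ j = algebraMap F _ ((l ^ j)⁻¹ * c) := by
    rw [map_mul, ← e1, mul_pow, ← map_pow, ← mul_assoc, ← map_mul, inv_mul_cancel₀ hlj0,
      map_one, one_mul]
  obtain ⟨h1, h2⟩ := ju_two_props F p j _ e3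
  have f3 : l ^ (3 * j) = 1 := by
    have h3 : c = l ^ j := by
      field_simp at h1
      exact h1
    rw [h3, inv_pow] at e2
    have h4 : (l ^ 2) ^ j ≠ 0 := pow_ne_zero _ hl20
    rw [show 3 * j = 2 * j + j by ring, pow_add, ← e2, pow_mul, mul_inv_cancel₀ h4]
  have f4 : (q - 1) / d ∣ j :=
    div_gcd_dvd' 3 _ j (hl _ f3) (q - 1) (Dvd.intro _ rfl) (by norm_num) (Nat.gcd_dvd_right _ _)
  apply Nat.Coprime.mul_dvd_of_dvd_of_dvd _ h2 f4
  exact Nat.Coprime.coprime_dvd_right (Nat.div_dvd_of_dvd (Nat.gcd_dvd_right 3 (q - 1)))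
    (coprime_p_card_sub_one p)

theorem exists_E5 [CharP F 2] :
    ∃ y : Matrix.ProjectiveSpecialLinearGroup (Fin 3) F, 4 ∣ orderOf y := by
  have : Fact (Nat.Prime 2) := ⟨Nat.prime_two⟩
  apply exists_of_alg (A := JA F 3) (ja_finrank F 3) (ju F 3) (ju_norm F 3)
  intro j c hc
  have := (ju_props F 3 2 2 (by norm_num) (by
    intro s hs
    by_contra hcon
    have : s = 0 ∨ s = 1 := by omega
    rcases this with rfl | rfl <;> norm_num at hs) j c hc).2
  simpa using this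

theorem exists_E2 (p : ℕ) [Fact p.Prime] [CharP F p] :
    ∃ y : Matrix.ProjectiveSpecialLinearGroup (Fin 3) F, (q ^ 2 - 1) / d ∣ orderOf y := by
  have hq1 : 1 ≤ q := Fintype.card_pos
  let K := FiniteField.Extension F p 2
  have hfin : finrank F K = 2 := FiniteField.finrank_extension F p 2
  obtain ⟨l, hl⟩ := exists_ext_element (F := F) p 2 (q ^ 2 - 1) (by rw [Nat.card_eq_fintype_card])
  have hpos : 0 < q ^ 2 - 1 := by
    have : 1 < q := Fintype.one_lt_card
    have : 1 < q ^ 2 := Nat.one_lt_pow (by norm_num) this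
    omega
  have hl0 : l ≠ 0 := by
    rintro rfl
    rw [orderOf_zero] at hl
    omega
  have hN0 : Algebra.norm F l ≠ 0 := Algebra.norm_ne_zero_iff.2 hl0
  have hN : algebraMap F K (Algebra.norm F l) = l ^ (q + 1) := by
    have := FiniteField.algebraMap_norm_eq_pow_sum (K := F) (L := K) (x := l)
    rw [hfin, Nat.card_eq_fintype_card, Finset.sum_range_succ,
      Finset.sum_range_succ, Finset.sum_range_zero] at this
    rw [this]
    congr 1
    ring
  apply exists_of_alg (A := K × F) (by rw [Module.finrank_prod, hfin, Module.finrank_self])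
    (l, (Algebra.norm F l)⁻¹)
    (by rw [norm_prod_mk', Algebra.norm_self, MonoidHom.id_apply, mul_inv_cancel₀ hN0])
  intro j c hc
  have e1 : l ^ j = algebraMap F K c := congrArg Prod.fst hc
  have e2 : ((Algebra.norm F l)⁻¹) ^ j = c := congrArg Prod.snd hc
  have hc0 : c ≠ 0 := by
    rw [← e2]
    exact pow_ne_zero _ (inv_ne_zero hN0)
  have f1 : l ^ ((q - 1) * j) = 1 := by
    rw [mul_comm, pow_mul, e1, ← map_pow, FiniteField.pow_card_sub_one_eq_one c hc0, map_one]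
  have f2 : l ^ ((q + 2) * j) = 1 := by
    have h3 : algebraMap F K c * (l ^ (q + 1)) ^ j = 1 := by
      rw [← hN, ← map_pow, ← map_mul, ← e2, inv_pow, inv_mul_cancel₀ (pow_ne_zero _ hN0), map_one]
    rw [← h3, ← e1, ← pow_mul, ← pow_add]
    congr 1
    ring
  have g1 : q ^ 2 - 1 ∣ (q - 1) * j := by rw [← hl]; exact orderOf_dvd_of_pow_eq_one f1
  have g2 : q ^ 2 - 1 ∣ (q + 2) * j := by rw [← hl]; exact orderOf_dvd_of_pow_eq_one f2
  have g3 : q ^ 2 - 1 ∣ 3 * j := by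
    have := Nat.dvd_sub g2 g1
    rwa [← Nat.sub_mul, show q + 2 - (q - 1) = 3 by omega] at this
  exact div_gcd_dvd' 3 _ j g3 (q - 1) g1 (by norm_num) (gcd_dvd_sq_sub_one' q)

theorem exists_E1 (p : ℕ) [Fact p.Prime] [CharP F p] :
    ∃ y : Matrix.ProjectiveSpecialLinearGroup (Fin 3) F, (q ^ 2 + q + 1) / d ∣ orderOf y := by
  have hq1 : 1 ≤ q := Fintype.card_pos
  let K := FiniteField.Extension F p 3
  have hfin : finrank F K = 3 := FiniteField.finrank_extension F p 3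
  obtain ⟨ν, hν⟩ := exists_ext_element (F := F) p 3 (q ^ 2 + q + 1) (by
    rw [Nat.card_eq_fintype_card]
    obtain ⟨t, ht⟩ : ∃ t, q = t + 1 := ⟨q - 1, by omega⟩
    rw [ht]
    refine ⟨t, ?_⟩
    have : (t + 1) ^ 3 = ((t + 1) ^ 2 + (t + 1) + 1) * t + 1 := by ring
    omega)
  have hν1 : ν ^ (q ^ 2 + q + 1) = 1 := by rw [← hν]; exact pow_orderOf_eq_one ν
  have hν0 : ν ≠ 0 := by
    rintro rfl
    rw [orderOf_zero] at hν
    omega
  apply exists_of_alg (A := K) hfin ν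
  · apply (algebraMap F K).injective
    rw [FiniteField.algebraMap_norm_eq_pow_sum, hfin, Nat.card_eq_fintype_card, map_one,
      Finset.sum_range_succ, Finset.sum_range_succ, Finset.sum_range_succ, Finset.sum_range_zero,
      show 0 + q ^ 0 + q ^ 1 + q ^ 2 = q ^ 2 + q + 1 by ring, hν1]
  · intro j c hj
    have hc0 : c ≠ 0 := by
      rintro rfl
      rw [map_zero] at hj
      exact pow_ne_zero j hν0 hj
    have g1 : c ^ (q - 1) = 1 := FiniteField.pow_card_sub_one_eq_one c hc0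
    have g2 : c ^ (q ^ 2 + q + 1) = 1 := by
      apply (algebraMap F K).injective
      rw [map_pow, ← hj, ← pow_mul, mul_comm, pow_mul, hν1, one_pow, map_one]
    have g3 : c ^ 3 = 1 := by
      have h5 : q ^ 2 + q + 1 = (q - 1) * (q + 2) + 3 := by
        obtain ⟨t, ht⟩ : ∃ t, q = t + 1 := ⟨q - 1, by omega⟩
        rw [ht, Nat.add_sub_cancel]
        ring
      rw [h5, pow_add, pow_mul, g1, one_pow, one_mul] at g2
      exact g2
    have g4 : c ^ d = 1 := pow_gcd_eq_one.2 ⟨g3, g1⟩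
    have g5 : ν ^ (d * j) = 1 := by
      rw [mul_comm, pow_mul, hj, ← map_pow, g4, map_one]
    rw [Nat.div_dvd_iff_dvd_mul (gcd_dvd_phi3 q hq1) (Nat.gcd_pos_of_pos_left _ (by norm_num)),
      ← hν]
    exact orderOf_dvd_of_pow_eq_one g5

end Lower

end Cfsg.Agent.Lib.Helper45PSL3
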