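import Mathlib
import Cfsg.Prelude.Def_LinearParabolics

/-!
# The Bruhat decomposition of `GL_n` (existence) and rank invariants of parabolic double cosets
-/

set_option autoImplicit false
set_option linter.unusedSectionVars false
set_option linter.unusedSimpArgs false
set_option linter.unusedVariables false

namespace Cfsg.Agent.Lib.Helper46Bruhat

open Finset
open scoped MatrixGroups

variable {n : ℕ} {F : Type*} [Field F]

/-- Permutation matrices (a homomorphism). -/
def pm (w : Equiv.Perm (Fin n)) : Matrix (Fin n) (Fin n) F := fun i j => if i = w j then 1 else 0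

theorem pm_apply (w : Equiv.Perm (Fin n)) (i j : Fin n) : (pm w : Matrix (Fin n) (Fin n) F) i j = if i = w j then 1 else 0 :=
  rfl

theorem pm_one : (pm 1 : Matrix (Fin n) (Fin n) F) = 1 := by
  ext i j
  by_cases h : i = j <;> simp [pm_apply, Matrix.one_apply, h]

theorem pm_mul (w w' : Equiv.Perm (Fin n)) : (pm (w * w') : Matrix (Fin n) (Fin n) F) = pm w * pm w' := by
  ext i j
  rw [Matrix.mul_apply, Finset.sum_eq_single (w' j)]
  · by_cases h : i = w (w' j) <;> simp [pm_apply, h]
  · intro k _ hk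
    simp [pm_apply, hk]
  · simp

/-- Permutation matrices in `GL_n`. -/
def pmGL : Equiv.Perm (Fin n) →* GL (Fin n) F where
  toFun w := ⟨pm w, pm w⁻¹, by rw [← pm_mul]; simp [pm_one], by rw [← pm_mul]; simp [pm_one]⟩
  map_one' := Units.ext pm_one
  map_mul' w w' := Units.ext (pm_mul w w')

theorem pmGL_coe (w : Equiv.Perm (Fin n)) : ((pmGL w : GL (Fin n) F) : Matrix (Fin n) (Fin n) F) = pm w := rfl

/-- `1 + u ⊗ e_{i₀}`. -/
def Lm (i₀ : Fin n) (u : Fin n → F) : Matrix (Fin n) (Fin n) F :=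
  fun i k => (if i = k then 1 else 0) + (if k = i₀ then u i else 0)

theorem Lm_mul (i₀ : Fin n) (u : Fin n → F) (M : Matrix (Fin n) (Fin n) F) (i l : Fin n) :
    (Lm i₀ u * M) i l = M i l + u i * M i₀ l := by
  simp [Matrix.mul_apply, Lm, add_mul, Finset.sum_add_distrib]

/-- `1 + e_{j₀} ⊗ v`. -/
def Rm (j₀ : Fin n) (v : Fin n → F) : Matrix (Fin n) (Fin n) F :=
  fun k l => (if k = l then 1 else 0) + (if k = j₀ then v l else 0)

theorem mul_Rm (j₀ : Fin n) (v : Fin n → F) (M : Matrix (Fin n) (Fin n) F) (i l : Fin n) :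
    (M * Rm j₀ v) i l = M i l + M i j₀ * v l := by
  simp [Matrix.mul_apply, Rm, mul_add, Finset.sum_add_distrib]

theorem Lm_tri (i₀ : Fin n) (u : Fin n → F) (hu : ∀ i, i₀ ≤ i → u i = 0) :
    (Lm i₀ u).BlockTriangular id := by
  intro i k hki
  simp only [id] at hki
  unfold Lm
  rw [if_neg hki.ne']
  split_ifs with h
  · rw [hu i (h ▸ hki.le)]; simp
  · simp

theorem Rm_tri (j₀ : Fin n) (v : Fin n → F) (hv : ∀ l, l ≤ j₀ → v l = 0) :
    (Rm j₀ v).BlockTriangular id := by
  intro k l hlk
  simp only [id] at hlk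
  unfold Rm
  rw [if_neg hlk.ne']
  split_ifs with h
  · rw [hv l (h ▸ hlk.le)]; simp
  · simp

theorem Lm_det (i₀ : Fin n) (u : Fin n → F) (hu : ∀ i, i₀ ≤ i → u i = 0) : (Lm i₀ u).det = 1 := by
  rw [Matrix.det_of_isUpperTriangular (Lm_tri i₀ u hu)]
  apply Finset.prod_eq_one
  intro i _
  unfold Lm
  rw [if_pos rfl]
  split_ifs with h
  · rw [hu i h.ge]; simp
  · simp

theorem Rm_det (j₀ : Fin n) (v : Fin n → F) (hv : ∀ l, l ≤ j₀ → v l = 0) : (Rm j₀ v).det = 1 := by
  rw [Matrix.det_of_isUpperTriangular (Rm_tri j₀ v hv)]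
  apply Finset.prod_eq_one
  intro i _
  unfold Rm
  rw [if_pos rfl]
  split_ifs with h
  · rw [hv i h.le]; simp
  · simp

local notation "BB" => Cfsg.upperTriangularGL n F

theorem mem_BB {g : GL (Fin n) F} : g ∈ BB ↔ (g : Matrix (Fin n) (Fin n) F).BlockTriangular id := Iff.rfl

/-- The first `j` columns are reduced. -/
def Red (M : Matrix (Fin n) (Fin n) F) (j : ℕ) : Prop :=
  ∃ r : Fin n → Fin n, ∀ l : Fin n, l.val < j →
    (∀ i, i ≠ r l → M i l = 0) ∧ (∀ l', l' ≠ l → M (r l) l' = 0)

theorem exists_ne_zero_col (g : GL (Fin n) F) (l : Fin n) : ∃ i, (g : Matrix (Fin n) (Fin n) F) i l ≠ 0 := by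
  by_contra hcon
  push Not at hcon
  have h0 : (g : Matrix (Fin n) (Fin n) F).det = 0 := Matrix.det_eq_zero_of_column_eq_zero l hcon
  have := (Matrix.isUnit_iff_isUnit_det _).mp g.isUnit
  rw [h0] at this
  exact not_isUnit_zero this

theorem red_step (g : GL (Fin n) F) (j : ℕ) (hj : j < n) (hred : Red (g : Matrix (Fin n) (Fin n) F) j) :
    ∃ b ∈ BB, ∃ b' ∈ BB, Red ((b * g * b' : GL (Fin n) F) : Matrix (Fin n) (Fin n) F) (j + 1) := by
  classical
  obtain ⟨r, hr⟩ := hred
  set M : Matrix (Fin n) (Fin n) F := (g : Matrix (Fin n) (Fin n) F) with hM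
  let jj : Fin n := ⟨j, hj⟩
  have hne : (univ.filter fun i => M i jj ≠ 0).Nonempty := by
    obtain ⟨i, hi⟩ := exists_ne_zero_col g jj
    exact ⟨i, by simp [hM, hi]⟩
  set i₀ := (univ.filter fun i => M i jj ≠ 0).max' hne with hi₀
  have hi₀ne : M i₀ jj ≠ 0 := by
    have := Finset.max'_mem _ hne
    simpa using this
  have hgt : ∀ i, i₀ < i → M i jj = 0 := by
    intro i hi
    by_contra h
    have : i ≤ i₀ := Finset.le_max' _ i (by simp [h])
    exact absurd hi (not_lt.mpr this)
  have hrl : ∀ l : Fin n, l.val < j → r l ≠ i₀ := by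
    intro l hl h
    apply hi₀ne
    rw [← h]
    apply (hr l hl).2
    intro h2
    rw [← h2] at hl
    exact lt_irrefl _ hl
  have hrow0 : ∀ l : Fin n, l.val < j → M i₀ l = 0 := fun l hl => (hr l hl).1 i₀ (hrl l hl).symm
  let u : Fin n → F := fun i => if i < i₀ then -M i jj / M i₀ jj else 0
  have hu : ∀ i, i₀ ≤ i → u i = 0 := fun i hi => if_neg (not_lt.mpr hi)
  set M₁ := Lm i₀ u * M with hM₁
  have e1 : ∀ i l, M₁ i l = M i l + u i * M i₀ l := Lm_mul i₀ u M
  have c1 : ∀ i, i ≠ i₀ → M₁ i jj = 0 := by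
    intro i hi
    rw [e1]
    rcases lt_or_gt_of_ne hi with h | h
    · simp only [u, if_pos h]
      field_simp
      ring
    · rw [hgt i h, hu i h.le]; ring
  have c2 : ∀ l, M₁ i₀ l = M i₀ l := by
    intro l
    rw [e1, hu i₀ le_rfl]; ring
  let v : Fin n → F := fun l => if jj < l then -M₁ i₀ l / M₁ i₀ jj else 0
  have hv : ∀ l, l ≤ jj → v l = 0 := fun l hl => if_neg (not_lt.mpr hl)
  set M₂ := M₁ * Rm jj v with hM₂
  have e2 : ∀ i l, M₂ i l = M₁ i l + M₁ i jj * v l := mul_Rm jj v M₁
  let b : GL (Fin n) F := Matrix.GeneralLinearGroup.mkOfDetNeZero (Lm i₀ u) (by rw [Lm_det i₀ u hu]; exact one_ne_zero)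
  let b' : GL (Fin n) F := Matrix.GeneralLinearGroup.mkOfDetNeZero (Rm jj v) (by rw [Rm_det jj v hv]; exact one_ne_zero)
  refine ⟨b, Lm_tri i₀ u hu, b', Rm_tri jj v hv, Function.update r jj i₀, ?_⟩
  have hcoe : ((b * g * b' : GL (Fin n) F) : Matrix (Fin n) (Fin n) F) = M₂ := rfl
  rw [hcoe]
  intro l hl
  by_cases hlj : l = jj
  · subst hlj
    rw [Function.update_self]
    constructor
    · intro i hi
      rw [e2, c1 i hi]; ring
    · intro l' hl'
      rw [e2, c2, c2]
      rcases lt_or_gt_of_ne hl' with h | h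
      · rw [hrow0 l' h, hv l' h.le]; ring
      · simp only [v, if_pos h, c2]
        field_simp
        ring
  · have hl2 : l.val < j := by
      have : l.val ≠ j := fun h => hlj (Fin.ext h)
      omega
    rw [Function.update_of_ne hlj]
    constructor
    · intro i hi
      rw [e2, hv l (le_of_lt hl2), e1, (hr l hl2).1 i hi, hrow0 l hl2]; ring
    · intro l' hl'
      rw [e2, c1 _ (hrl l hl2), e1, (hr l hl2).2 l' hl']
      have : u (r l) = 0 := by
        simp only [u]
        split_ifs
        · rw [(hr l hl2).2 jj (fun h => hlj h.symm)]; simp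
        · rfl
      rw [this]; ring

theorem red_all (g : GL (Fin n) F) : ∀ j : ℕ, j ≤ n →
    ∃ b ∈ BB, ∃ b' ∈ BB, Red ((b * g * b' : GL (Fin n) F) : Matrix (Fin n) (Fin n) F) j := by
  intro j
  induction j with
  | zero =>
    intro _
    exact ⟨1, (BB).one_mem, 1, (BB).one_mem, fun i => i, fun l hl => absurd hl (Nat.not_lt_zero _)⟩
  | succ j ih =>
    intro hj
    obtain ⟨b, hb, b', hb', hred⟩ := ih (by omega)
    obtain ⟨c, hc, c', hc', hred2⟩ := red_step (b * g * b') j (by omega) hred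
    refine ⟨c * b, (BB).mul_mem hc hb, b' * c', (BB).mul_mem hb' hc', ?_⟩
    have : c * b * g * (b' * c') = c * (b * g * b') * c' := by group
    rw [this]
    exact hred2

/-- **Bruhat decomposition** (existence). -/
theorem bruhat (g : GL (Fin n) F) : ∃ w : Equiv.Perm (Fin n), ∃ b ∈ BB, ∃ b' ∈ BB, g = b * pmGL w * b' := by
  classical
  obtain ⟨b, hb, b', hb', r, hr⟩ := red_all g n le_rfl
  set g' : GL (Fin n) F := b * g * b' with hg'
  have hd : ∀ l, (g' : Matrix (Fin n) (Fin n) F) (r l) l ≠ 0 := by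
    intro l
    obtain ⟨i, hi⟩ := exists_ne_zero_col g' l
    by_cases h : i = r l
    · rw [← h]; exact hi
    · exact absurd ((hr l l.2).1 i h) hi
  have hinj : Function.Injective r := by
    intro l l' h
    by_contra hne
    apply hd l'
    rw [← h]
    exact (hr l l.2).2 l' (fun h2 => hne h2.symm)
  let w : Equiv.Perm (Fin n) := Equiv.ofBijective r (Finite.injective_iff_bijective.mp hinj)
  let D : Matrix (Fin n) (Fin n) F := Matrix.diagonal fun l => (g' : Matrix (Fin n) (Fin n) F) (r l) l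
  let d : GL (Fin n) F := Matrix.GeneralLinearGroup.mkOfDetNeZero D (by
    rw [Matrix.det_diagonal]
    exact Finset.prod_ne_zero_iff.mpr (fun l _ => hd l))
  have hdB : d ∈ BB := by
    intro i k hki
    exact Matrix.diagonal_apply_ne' _ (ne_of_lt hki)
  have hg2 : g' = pmGL w * d := by
    apply Units.ext
    ext i l
    change _ = ((pm w : Matrix (Fin n) (Fin n) F) * D) i l
    rw [Matrix.mul_apply, Finset.sum_eq_single l]
    · simp only [pm_apply, D, Matrix.diagonal_apply_eq]
      by_cases h : i = r l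
      · rw [if_pos (by exact h), one_mul, h]
      · rw [if_neg (by exact h), zero_mul]
        exact (hr l l.2).1 i h
    · intro k _ hk
      simp [D, Matrix.diagonal_apply_ne _ hk]
    · simp
  refine ⟨w, b⁻¹, (BB).inv_mem hb, d * b'⁻¹, (BB).mul_mem hdB ((BB).inv_mem hb'), ?_⟩
  have : g = b⁻¹ * g' * b'⁻¹ := by rw [hg']; group
  rw [this, hg2]
  group

/-! ### Rank invariants -/

section Rank

variable (a b : Fin n → ℕ)

/-- Projection on the rows of label at least `s`. -/
def Ds (s : ℕ) : Matrix (Fin n) (Fin n) F := Matrix.diagonal fun i => if s ≤ a i then 1 else 0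

/-- Projection on the columns of label less than `t`. -/
def Dt (t : ℕ) : Matrix (Fin n) (Fin n) F := Matrix.diagonal fun j => if b j < t then 1 else 0

theorem Ds_mul_tri {p : Matrix (Fin n) (Fin n) F} (hp : p.BlockTriangular a) (s : ℕ) :
    Ds a s * p = Ds a s * p * Ds a s := by
  ext i j
  simp only [Ds, Matrix.diagonal_mul, Matrix.mul_diagonal]
  by_cases h1 : s ≤ a i
  · by_cases h2 : s ≤ a j
    · simp [h1, h2]
    · have : p i j = 0 := hp (by omega)
      simp [this]
  · simp [h1]

theorem tri_mul_Dt {p : Matrix (Fin n) (Fin n) F} (hp : p.BlockTriangular b) (t : ℕ) :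
    p * Dt b t = Dt b t * p * Dt b t := by
  ext i j
  simp only [Dt, Matrix.diagonal_mul, Matrix.mul_diagonal]
  by_cases h1 : b j < t
  · by_cases h2 : b i < t
    · simp [h1, h2]
    · have : p i j = 0 := hp (by omega)
      simp [this]
  · simp [h1]

theorem rank_le {p p' : Matrix (Fin n) (Fin n) F} (hp : p.BlockTriangular a) (hp' : p'.BlockTriangular b)
    (M : Matrix (Fin n) (Fin n) F) (s t : ℕ) :
    (Ds a s * (p * M * p') * Dt b t).rank ≤ (Ds a s * M * Dt b t).rank := by
  have e : Ds a s * (p * M * p') * Dt b t = (Ds a s * p) * (Ds a s * M * Dt b t) * (p' * Dt b t) := by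
    calc Ds a s * (p * M * p') * Dt b t = (Ds a s * p) * M * (p' * Dt b t) := by
          simp only [Matrix.mul_assoc]
      _ = (Ds a s * p * Ds a s) * M * (Dt b t * p' * Dt b t) := by rw [← Ds_mul_tri a hp, ← tri_mul_Dt b hp']
      _ = _ := by simp only [Matrix.mul_assoc]
  rw [e]
  exact (Matrix.rank_mul_le_left _ _).trans (Matrix.rank_mul_le_right _ _)

theorem rank_pm [DecidableEq F] (w : Equiv.Perm (Fin n)) (s t : ℕ) :
    (Ds a s * (pm w : Matrix (Fin n) (Fin n) F) * Dt b t).rank =
      (univ.filter fun j => s ≤ a (w j) ∧ b j < t).card := by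
  have e : Ds a s * (pm w : Matrix (Fin n) (Fin n) F) * Dt b t =
      pm w * Matrix.diagonal fun j => if s ≤ a (w j) ∧ b j < t then (1 : F) else 0 := by
    ext i j
    simp only [Ds, Dt, Matrix.diagonal_mul, Matrix.mul_diagonal, pm_apply]
    by_cases h : i = w j
    · subst h
      by_cases h1 : s ≤ a (w j) <;> by_cases h2 : b j < t <;> simp [h1, h2]
    · simp [h]
  have hu : IsUnit (pm w : Matrix (Fin n) (Fin n) F).det :=
    (Matrix.isUnit_iff_isUnit_det _).mp (pmGL (F := F) w).isUnit
  rw [e, Matrix.rank_mul_eq_right_of_isUnit_det _ _ hu, Matrix.rank_diagonal, Fintype.card_subtype]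
  congr 1
  ext j
  simp

theorem card_key (x y : Fin n → ℕ) (s t : ℕ) :
    (univ.filter fun j => s ≤ x j ∧ y j < t + 1).card + (univ.filter fun j => s + 1 ≤ x j ∧ y j < t).card =
      (univ.filter fun j => x j = s ∧ y j = t).card + (univ.filter fun j => s + 1 ≤ x j ∧ y j < t + 1).card +
        (univ.filter fun j => s ≤ x j ∧ y j < t).card := by
  simp only [Finset.card_filter, ← Finset.sum_add_distrib]
  apply Finset.sum_congr rfl
  intro j _
  split_ifs <;> omega

/-- Permutation matrices in the same double coset of block triangular groups have the same contingency table. -/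
theorem card_eq_of_double_coset (w w' : Equiv.Perm (Fin n)) {p p' : GL (Fin n) F}
    (hp : (p : Matrix (Fin n) (Fin n) F).BlockTriangular a)
    (hp' : (p' : Matrix (Fin n) (Fin n) F).BlockTriangular b)
    (hpi : ((p⁻¹ : GL (Fin n) F) : Matrix (Fin n) (Fin n) F).BlockTriangular a)
    (hpi' : ((p'⁻¹ : GL (Fin n) F) : Matrix (Fin n) (Fin n) F).BlockTriangular b)
    (e : (pmGL w' : GL (Fin n) F) = p * pmGL w * p') (s t : ℕ) :
    (univ.filter fun j => a (w j) = s ∧ b j = t).card = (univ.filter fun j => a (w' j) = s ∧ b j = t).card := by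
  classical
  have e1 : (pm w' : Matrix (Fin n) (Fin n) F) = (p : Matrix (Fin n) (Fin n) F) * pm w * (p' : Matrix (Fin n) (Fin n) F) :=
    congrArg Units.val e
  have e2 : (pm w : Matrix (Fin n) (Fin n) F) =
      ((p⁻¹ : GL (Fin n) F) : Matrix (Fin n) (Fin n) F) * pm w' * ((p'⁻¹ : GL (Fin n) F) : Matrix (Fin n) (Fin n) F) := by
    have : (pmGL w : GL (Fin n) F) = p⁻¹ * pmGL w' * p'⁻¹ := by rw [e]; group
    exact congrArg Units.val this
  have hr : ∀ s t : ℕ, (univ.filter fun j => s ≤ a (w j) ∧ b j < t).card =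
      (univ.filter fun j => s ≤ a (w' j) ∧ b j < t).card := by
    intro s t
    rw [← rank_pm (F := F) a b w s t, ← rank_pm (F := F) a b w' s t]
    apply le_antisymm
    · conv_lhs => rw [e2]
      exact rank_le a b hpi hpi' _ s t
    · conv_lhs => rw [e1]
      exact rank_le a b hp hp' _ s t
  have k1 := card_key (fun j => a (w j)) b s t
  have k2 := card_key (fun j => a (w' j)) b s t
  simp only [hr] at k1
  omega

end Rank

end Cfsg.Agent.Lib.Helper46Bruhat
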