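import Mathlib
import Cfsg.Agent.Lib.Helper46DZ2
import Cfsg.Agent.Lib.Helper46SLn6
import Cfsg.Agent.Lib.Helper79Central
import Cfsg.Agent.Lib.Helper4Char2

set_option autoImplicit false
set_option linter.unusedSectionVars false
set_option linter.unusedSimpArgs false

/-! The three `p`-blocks of `SL_2(F)`, `F` of odd characteristic `p`. -/

namespace Cfsg.Agent.Lib.Helper46DZ3

open Cfsg Matrix Cfsg.Agent.Lib.Helper46SLn1 Cfsg.Agent.Lib.Helper46SLn3 Cfsg.Agent.Lib.Helper46SLn6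
open Cfsg.Agent.Lib.Helper46DZ2 Cfsg.Agent.Lib.Helper83Char Cfsg.Agent.Lib.Helper81Block
open Cfsg.Agent.Lib.Helper81Local
open scoped ComplexConjugate

theorem four_le {α : Type*} [Finite α] {a b c d : α} (hab : a ≠ b) (hac : a ≠ c) (had : a ≠ d)
    (hbc : b ≠ c) (hbd : b ≠ d) (hcd : c ≠ d) : 4 ≤ Nat.card α := by
  classical
  have := Fintype.ofFinite α
  rw [Nat.card_eq_fintype_card]
  have h4 : ({a, b, c, d} : Finset α).card = 4 := by
    rw [Finset.card_insert_of_notMem, Finset.card_insert_of_notMem, Finset.card_insert_of_notMem,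
      Finset.card_singleton] <;> simp [*]
  rw [← h4]; exact Finset.card_le_univ _

variable {F : Type*} [Field F] [Fintype F] (p : ℕ) [Fact p.Prime] [CharP F p]

local notation "G" => Matrix.SpecialLinearGroup (Fin 2) F

theorem neg_one_mem_center : (-1 : G) ∈ Subgroup.center G := by
  rw [Subgroup.mem_center_iff]
  intro g
  simp

theorem neg_one_ne_one (hp : p ≠ 2) : (-1 : G) ≠ 1 := by
  intro h
  have h1 : ((-1 : G) : Matrix (Fin 2) (Fin 2) F) 0 0 = ((1 : G) : Matrix (Fin 2) (Fin 2) F) 0 0 := by rw [h]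
  simp only [Matrix.SpecialLinearGroup.coe_neg, Matrix.SpecialLinearGroup.coe_one, Matrix.neg_apply,
    Matrix.one_apply_eq] at h1
  have h2 : ((2 : ℕ) : F) = 0 := by
    push_cast
    linear_combination -h1
  rw [CharP.cast_eq_zero_iff F p] at h2
  exact hp ((Nat.prime_dvd_prime_iff_eq (Fact.out : p.Prime) Nat.prime_two).1 h2)

theorem sign_cases {χ : G → ℂ} (hχ : IsIrrCharacter G χ) : χ (-1) = χ 1 ∨ χ (-1) = -χ 1 := by
  have h := Cfsg.Agent.Lib.Helper79Central.irr_central_mul hχ neg_one_mem_center (-1)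
  have h0 := irr_one_ne_zero hχ
  rw [neg_mul_neg, one_mul] at h
  have h2 : (χ (-1) - χ 1) * (χ (-1) + χ 1) = 0 := by
    field_simp at h
    linear_combination -h
  rcases mul_eq_zero.1 h2 with h3 | h3
  · left; linear_combination h3
  · right; linear_combination h3

theorem centralChar_neg_one (χ : G → ℂ) : centralChar χ (-1) = χ (-1) / χ 1 := by
  unfold centralChar
  have : Subgroup.centralizer ({-1} : Set G) = ⊤ := by
    ext t
    simp [Subgroup.mem_centralizer_singleton_iff]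
  rw [this, Subgroup.index_top, Nat.cast_one, one_mul]

variable {p} {M : Ideal AlgInt}

theorem sign_of_sameBlock (hp : p ≠ 2) (hM : IsPModular p M) {χ ψ : G → ℂ} (hχ : IsIrrCharacter G χ)
    (hψ : IsIrrCharacter G ψ) (h : SameBlock M χ ψ) (h1 : χ (-1) = χ 1) : ψ (-1) = ψ 1 := by
  have hprime := hM.2.1.isPrime
  rcases sign_cases hψ with h2 | h2
  · exact h2
  · exfalso
    have h3 := h (-1)
    rw [centralChar_neg_one, centralChar_neg_one, h1, h2, div_self (irr_one_ne_zero hχ), neg_div,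
      div_self (irr_one_ne_zero hψ)] at h3
    have h4 : (1 : ℂ) - -1 = ((2 : ℕ) : ℂ) := by norm_num
    rw [h4, memLocalIdeal_natCast_iff hM] at h3
    exact hp ((Nat.prime_dvd_prime_iff_eq (Fact.out : p.Prime) Nat.prime_two).1 h3)

variable (F) in
theorem exists_minus (hp : p ≠ 2) : ∃ χ : IrrCharacter G, (χ : G → ℂ) (-1) = -(χ : G → ℂ) 1 := by
  classical
  have : Fintype G := Fintype.ofFinite _
  by_contra hcon
  push Not at hcon
  have h1 : ∀ χ : IrrCharacter G, (χ : G → ℂ) (-1) = (χ : G → ℂ) 1 := fun χ =>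
    (sign_cases χ.2).resolve_right (hcon χ)
  have h2 := Cfsg.Agent.Lib.Helper4Char2.col_orth (1 : G) (-1)
  have h3 : ¬ IsConj (1 : G) (-1) := by
    rw [isConj_one_right]
    exact neg_one_ne_one p hp
  rw [if_neg h3] at h2
  have h4 : ∀ χ : IrrCharacter G, (χ : G → ℂ) 1 * conj ((χ : G → ℂ) (-1)) =
      (((charDegree (χ : G → ℂ)) ^ 2 : ℕ) : ℂ) := by
    intro χ
    rw [h1, ← charDegree_cast χ.2]
    simp [sq]
  rw [Finset.sum_congr rfl (fun χ _ => h4 χ), ← Nat.cast_sum, Nat.cast_eq_zero,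
    Finset.sum_eq_zero_iff] at h2
  have h5 := h2 ⟨_, isIrr_one⟩ (Finset.mem_univ _)
  have h6 := charDegree_pos (isIrr_one : IsIrrCharacter G (fun _ => (1 : ℂ)))
  have : charDegree (fun _ : G => (1 : ℂ)) = 0 := by
    simpa using h5
  omega

theorem card_blocks_eq (hp : p ≠ 2) (hM : IsPModular p M) :
    Nat.card {B : Set (IrrCharacter G) // IsPBlock M B} = 3 := by
  rw [card_blocks (le_refl 2) hM, card_center (by norm_num)]
  have hodd : ¬ 2 ∣ Fintype.card F := by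
    obtain ⟨k, -, hk⟩ := FiniteField.card F p
    rw [hk]
    intro h
    have := Nat.Prime.dvd_of_dvd_pow Nat.prime_two h
    exact hp ((Nat.prime_dvd_prime_iff_eq Nat.prime_two (Fact.out : p.Prime)).1 this).symm
  have h1 : 1 ≤ Fintype.card F := Fintype.card_pos
  have h2 : 2 ∣ Fintype.card F - 1 := by omega
  rw [Nat.gcd_eq_left h2]

/-- the data of the Steinberg character. -/
theorem exists_St2 (hM : IsPModular p M) : ∃ χ0 : IrrCharacter G, (χ0 : G → ℂ) 1 = (Fintype.card F : ℂ) ∧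
    (χ0 : G → ℂ) (-1) = (χ0 : G → ℂ) 1 ∧ (∀ χ : IrrCharacter G, (χ : G → ℂ) 1 = (Fintype.card F : ℂ) → χ = χ0) ∧
    blockOf M (χ0 : G → ℂ) = {χ0} := by
  classical
  have : Fintype G := Fintype.ofFinite _
  have hpp := (Fact.out : p.Prime)
  obtain ⟨χ, hχ, h1, -, hZ⟩ := exists_St' (m := 1) (F := F)
  have hq : Nat.card (UU 2 F) = Fintype.card F := by rw [card_UU]; simp
  have hfac : ∀ ξ : G → ℂ, IsIrrCharacter G ξ → ξ 1 = (Fintype.card F : ℂ) →
      (charDegree ξ).factorization p = (Nat.card G).factorization p := by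
    intro ξ hξ h
    have h2 : charDegree ξ = Nat.card (UU 2 F) := by
      have := charDegree_cast hξ
      rw [h, ← hq] at this
      exact_mod_cast this
    rw [h2, card_UU_eq p, Nat.Prime.factorization_pow hpp]
    simp
  have h1' : χ 1 = (Fintype.card F : ℂ) := by rw [h1]; exact congrArg _ hq
  refine ⟨⟨χ, hχ⟩, h1', hZ _ neg_one_mem_center, ?_, ?_⟩
  · intro ξ hξ
    apply Subtype.ext
    exact unique_dz p (le_refl 2) ξ.2 hχ (hfac _ ξ.2 hξ) (hfac _ hχ h1')
  · rw [← Cfsg.Agent.Lib.Helper81Orth2.defect_zero_iff hM, Cfsg.Agent.Lib.Helper81Defect.not_dvd_div_iff hpp]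
    exact hfac _ hχ h1'

theorem main (hp : p ≠ 2) (hM : Cfsg.IsPModular p M) :
    (∀ B : Set (IrrCharacter G), IsPBlock M B ↔
      (B = {χ : IrrCharacter G | (χ : G → ℂ) 1 = (Fintype.card F : ℂ)} ∨
       B = {χ : IrrCharacter G | (χ : G → ℂ) (-1) = (χ : G → ℂ) 1 ∧ (χ : G → ℂ) 1 ≠ (Fintype.card F : ℂ)} ∨
       B = {χ : IrrCharacter G | (χ : G → ℂ) (-1) = -(χ : G → ℂ) 1})) ∧
    Nat.card {B : Set (IrrCharacter G) // IsPBlock M B} = 3 ∧
    ∀ P : Sylow p G,
      IsDefectGroup p M {χ : IrrCharacter G | (χ : G → ℂ) (-1) = (χ : G → ℂ) 1 ∧ (χ : G → ℂ) 1 ≠ (Fintype.card F : ℂ)} (P : Subgroup G) ∧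
      IsDefectGroup p M {χ : IrrCharacter G | (χ : G → ℂ) (-1) = -(χ : G → ℂ) 1} (P : Subgroup G) := by
  classical
  have : Fintype G := Fintype.ofFinite _
  have hprime := hM.2.1.isPrime
  obtain ⟨χ0, h0q, h0s, h0u, h0b⟩ := exists_St2 (F := F) hM
  obtain ⟨χm, hm⟩ := exists_minus F hp
  set χ1 : IrrCharacter G := ⟨_, isIrr_one⟩ with hχ1
  have h1s : (χ1 : G → ℂ) (-1) = (χ1 : G → ℂ) 1 := rfl
  have hq1 : (1 : ℂ) ≠ (Fintype.card F : ℂ) := by
    have : 1 < Fintype.card F := Fintype.one_lt_card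
    intro h
    have : (1 : ℕ) = Fintype.card F := by exact_mod_cast h
    omega
  have h1q : (χ1 : G → ℂ) 1 ≠ (Fintype.card F : ℂ) := hq1
  have hcard := card_blocks_eq (F := F) hp hM
  have hnot : ∀ χ : IrrCharacter G, (χ : G → ℂ) (-1) = -(χ : G → ℂ) 1 → ¬ (χ : G → ℂ) (-1) = (χ : G → ℂ) 1 := by
    intro χ h h'
    have := irr_one_ne_zero χ.2
    apply this
    linear_combination (1 / 2 : ℂ) * h - (1 / 2 : ℂ) * h'
  have hne0 : ∀ χ : IrrCharacter G, (χ : G → ℂ) 1 ≠ (Fintype.card F : ℂ) → ¬ SameBlock M (χ0 : G → ℂ) (χ : G → ℂ) := by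
    intro χ h hs
    have : χ ∈ blockOf M (χ0 : G → ℂ) := hs
    rw [h0b, Set.mem_singleton_iff] at this
    rw [this] at h
    exact h h0q
  have hmq : (χm : G → ℂ) 1 ≠ (Fintype.card F : ℂ) := by
    intro h
    rw [h0u χm h] at hm
    exact hnot χ0 hm h0s
  have hblk : ∀ a b : IrrCharacter G, (⟨blockOf M (a : G → ℂ), a, rfl⟩ : {B : Set (IrrCharacter G) // IsPBlock M B}) =
      ⟨blockOf M (b : G → ℂ), b, rfl⟩ → SameBlock M (a : G → ℂ) (b : G → ℂ) := by
    intro a b h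
    have h1 : blockOf M (a : G → ℂ) = blockOf M (b : G → ℂ) := congrArg Subtype.val h
    have : b ∈ blockOf M (a : G → ℂ) := by rw [h1]; exact self_mem_blockOf b
    exact this
  -- the key claim
  have key : ∀ (χ χ' χ'' : IrrCharacter G), (χ : G → ℂ) 1 ≠ (Fintype.card F : ℂ) →
      (χ' : G → ℂ) 1 ≠ (Fintype.card F : ℂ) → (χ'' : G → ℂ) 1 ≠ (Fintype.card F : ℂ) →
      ¬ SameBlock M (χ : G → ℂ) (χ'' : G → ℂ) → ¬ SameBlock M (χ' : G → ℂ) (χ'' : G → ℂ) →
      SameBlock M (χ : G → ℂ) (χ' : G → ℂ) := by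
    intro χ χ' χ'' h h' h'' hs hs'
    by_contra hcon
    have := four_le (α := {B : Set (IrrCharacter G) // IsPBlock M B})
      (a := ⟨blockOf M (χ0 : G → ℂ), χ0, rfl⟩) (b := ⟨blockOf M (χ : G → ℂ), χ, rfl⟩)
      (c := ⟨blockOf M (χ' : G → ℂ), χ', rfl⟩) (d := ⟨blockOf M (χ'' : G → ℂ), χ'', rfl⟩)
      (fun e => hne0 χ h (hblk _ _ e)) (fun e => hne0 χ' h' (hblk _ _ e)) (fun e => hne0 χ'' h'' (hblk _ _ e))
      (fun e => hcon (hblk _ _ e)) (fun e => hs (hblk _ _ e)) (fun e => hs' (hblk _ _ e))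
    omega
  have hSt : blockOf M (χ0 : G → ℂ) = {χ : IrrCharacter G | (χ : G → ℂ) 1 = (Fintype.card F : ℂ)} := by
    rw [h0b]
    ext χ
    simp only [Set.mem_singleton_iff, Set.mem_ofPred_eq]
    constructor
    · rintro rfl; exact h0q
    · exact h0u χ
  have hplus : ∀ χ : IrrCharacter G, (χ : G → ℂ) (-1) = (χ : G → ℂ) 1 → (χ : G → ℂ) 1 ≠ (Fintype.card F : ℂ) →
      blockOf M (χ : G → ℂ) = {χ : IrrCharacter G | (χ : G → ℂ) (-1) = (χ : G → ℂ) 1 ∧ (χ : G → ℂ) 1 ≠ (Fintype.card F : ℂ)} := by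
    intro χ hs hq
    ext χ'
    simp only [Set.mem_ofPred_eq]
    constructor
    · intro h
      have h' : SameBlock M (χ : G → ℂ) (χ' : G → ℂ) := h
      refine ⟨sign_of_sameBlock hp hM χ.2 χ'.2 h' hs, ?_⟩
      intro hq'
      rw [h0u χ' hq'] at h'
      exact hne0 χ hq (sameBlock_symm h')
    · rintro ⟨hs', hq'⟩
      exact key χ χ' χm hq hq' hmq (fun h => hnot χm hm (sign_of_sameBlock hp hM χ.2 χm.2 h hs))
        (fun h => hnot χm hm (sign_of_sameBlock hp hM χ'.2 χm.2 h hs'))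
  have hminus : ∀ χ : IrrCharacter G, (χ : G → ℂ) (-1) = -(χ : G → ℂ) 1 →
      blockOf M (χ : G → ℂ) = {χ : IrrCharacter G | (χ : G → ℂ) (-1) = -(χ : G → ℂ) 1} := by
    intro χ hs
    have hq : (χ : G → ℂ) 1 ≠ (Fintype.card F : ℂ) := by
      intro h
      rw [h0u χ h] at hs
      exact hnot χ0 hs h0s
    ext χ'
    simp only [Set.mem_ofPred_eq]
    constructor
    · intro h
      have h' : SameBlock M (χ : G → ℂ) (χ' : G → ℂ) := h
      rcases sign_cases χ'.2 with h2 | h2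
      · exact absurd (sign_of_sameBlock hp hM χ'.2 χ.2 (sameBlock_symm h') h2) (hnot χ hs)
      · exact h2
    · intro hs'
      have hq' : (χ' : G → ℂ) 1 ≠ (Fintype.card F : ℂ) := by
        intro h
        rw [h0u χ' h] at hs'
        exact hnot χ0 hs' h0s
      exact key χ χ' χ1 hq hq' h1q
        (fun h => hnot χ hs (sign_of_sameBlock hp hM χ1.2 χ.2 (sameBlock_symm h) h1s))
        (fun h => hnot χ' hs' (sign_of_sameBlock hp hM χ1.2 χ'.2 (sameBlock_symm h) h1s))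
  have hBp : IsPBlock M {χ : IrrCharacter G | (χ : G → ℂ) (-1) = (χ : G → ℂ) 1 ∧ (χ : G → ℂ) 1 ≠ (Fintype.card F : ℂ)} :=
    ⟨χ1, (hplus χ1 h1s h1q).symm⟩
  have hBm : IsPBlock M {χ : IrrCharacter G | (χ : G → ℂ) (-1) = -(χ : G → ℂ) 1} := ⟨χm, (hminus χm hm).symm⟩
  have hB0 : IsPBlock M {χ : IrrCharacter G | (χ : G → ℂ) 1 = (Fintype.card F : ℂ)} := ⟨χ0, hSt.symm⟩
  have hfull : ∀ (B : Set (IrrCharacter G)) (χ : IrrCharacter G), IsPBlock M B → χ ∈ B →
      (χ : G → ℂ) 1 ≠ (Fintype.card F : ℂ) → blockDefect p B = (Nat.card G).factorization p := by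
    intro B χ hB hχ hq
    refine (defect_dichotomy (by norm_num) hM hB).resolve_left ?_
    intro hd
    have h1 := card_defect_zero (F := F) (le_refl 2) hM
    rw [Nat.card_eq_one_iff_unique] at h1
    have hd0 : blockDefect p {χ : IrrCharacter G | (χ : G → ℂ) 1 = (Fintype.card F : ℂ)} = 0 :=
      (Cfsg.Agent.Lib.Helper81Defect.blockDefect_eq_zero_iff hM hB0).2 ⟨χ0, by rw [← hSt, h0b]⟩
    have h2 := h1.1.elim (⟨B, hB, hd⟩ : {B : Set (IrrCharacter G) // IsPBlock M B ∧ blockDefect p B = 0})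
      ⟨_, hB0, hd0⟩
    have h3 : B = {χ : IrrCharacter G | (χ : G → ℂ) 1 = (Fintype.card F : ℂ)} := congrArg Subtype.val h2
    rw [h3] at hχ
    exact hq hχ
  refine ⟨?_, hcard, ?_⟩
  · intro B
    constructor
    · rintro ⟨χ, rfl⟩
      by_cases hq : (χ : G → ℂ) 1 = (Fintype.card F : ℂ)
      · left; rw [h0u χ hq]; exact hSt
      · rcases sign_cases χ.2 with hs | hs
        · right; left; exact hplus χ hs hq
        · right; right; exact hminus χ hs
    · rintro (rfl | rfl | rfl)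
      · exact hB0
      · exact hBp
      · exact hBm
  · intro P
    exact ⟨(Cfsg.Agent.Lib.Helper21PS.sylow_defect hM hBp (hfull _ χ1 hBp ⟨h1s, h1q⟩ h1q)).1 P,
      (Cfsg.Agent.Lib.Helper21PS.sylow_defect hM hBm (hfull _ χm hBm hm hmq)).1 P⟩

end Cfsg.Agent.Lib.Helper46DZ3
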