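import Cfsg.Agent.Lib.Helper46SL2

set_option autoImplicit false

namespace Cfsg.Agent.Lib.Helper46SL2Cover

open Cfsg.Agent.Lib.Helper46SL2

variable {F : Type*} [Field F]

local notation "SL2" => Matrix.SpecialLinearGroup (Fin 2)
local notation "PSL2" => Matrix.ProjectiveSpecialLinearGroup (Fin 2)

theorem exists_Y (δ s t t' x y : F) (hδ : δ ≠ 0)
    (h : x ^ 2 - s * x * y + y ^ 2 - t * x + t' * y + 1 = 0) :
    ∃ Y : SL2 F, tr Y = t ∧ tr (Y⁻¹ * comp δ s hδ) = t' := by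
  have hdd : δ * δ⁻¹ = 1 := mul_inv_cancel₀ hδ
  refine ⟨mk2 x (y * δ⁻¹) (δ * (t' + y - s * x)) (t - x) ?_, ?_, ?_⟩
  · linear_combination (-1 : F) * h - y * (t' + y - s * x) * hdd
  · simp [tr]
  · simp only [tr, mul_00, mul_11, inv_00, inv_01, inv_10, inv_11, comp, mk2_00, mk2_01, mk2_10, mk2_11]
    linear_combination (t' - s * x) * hdd

theorem cover_of_exists [Finite F] (X G : SL2 F) (ht : tr X ^ 2 ≠ 4) (hG : G ∉ Subgroup.center (SL2 F))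
    (h : ∀ (δ : F) (hδ : δ ≠ 0), ∃ Y : SL2 F, tr Y = tr X ∧
      (tr (Y⁻¹ * comp δ (tr G) hδ) = tr X ∨ tr (Y⁻¹ * comp δ (tr G) hδ) = - tr X)) :
    ∃ u v : PSL2 F, (QuotientGroup.mk G : PSL2 F) =
      (u * QuotientGroup.mk X * u⁻¹) * (v * QuotientGroup.mk X * v⁻¹) := by
  obtain ⟨δ, hδ, P, hP⟩ := exists_conj_comp hG
  obtain ⟨Y, hY, hZ⟩ := h δ hδ
  obtain ⟨U, hU⟩ := isConj_iff.mp (isConj_of_tr_eq hY.symm ht)
  have hV : ∃ V : SL2 F, (QuotientGroup.mk (V * X * V⁻¹) : PSL2 F) =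
      QuotientGroup.mk (Y⁻¹ * comp δ (tr G) hδ) := by
    rcases hZ with hZ | hZ
    · obtain ⟨V, hV⟩ := isConj_iff.mp (isConj_of_tr_eq hZ.symm ht)
      exact ⟨V, by rw [hV]⟩
    · have hZ' : tr X = tr (-(Y⁻¹ * comp δ (tr G) hδ)) := by rw [tr_neg, hZ, neg_neg]
      obtain ⟨V, hV⟩ := isConj_iff.mp (isConj_of_tr_eq hZ' ht)
      exact ⟨V, by rw [hV, mk_neg]⟩
  obtain ⟨V, hV⟩ := hV
  refine ⟨QuotientGroup.mk (P * U), QuotientGroup.mk (P * V), ?_⟩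
  have hG' : G = P * (Y * (Y⁻¹ * comp δ (tr G) hδ)) * P⁻¹ := by
    rw [← hP]; group
  have e1 : (QuotientGroup.mk G : PSL2 F) =
      QuotientGroup.mk P * (QuotientGroup.mk Y * QuotientGroup.mk (Y⁻¹ * comp δ (tr G) hδ)) *
        (QuotientGroup.mk P)⁻¹ := by
    conv_lhs => rw [hG']
    simp only [QuotientGroup.mk_mul, QuotientGroup.mk_inv]
  rw [e1, ← hV, ← hU]
  simp only [QuotientGroup.mk_mul, QuotientGroup.mk_inv]
  group

theorem tr_ne_zero_of_orderOf {X : SL2 F} (h : 2 < orderOf (QuotientGroup.mk X : PSL2 F)) : tr X ≠ 0 := by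
  intro h0
  have h1 : (QuotientGroup.mk X : PSL2 F) ^ 2 = 1 := by
    rw [mk_pow_eq_one_iff, sq, sq_eq_neg_one_of_tr_eq_zero h0, mem_center_iff_eq]
    right; rfl
  have := Nat.le_of_dvd (by norm_num) (orderOf_dvd_of_pow_eq_one h1)
  omega

end Cfsg.Agent.Lib.Helper46SL2Cover
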