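import Mathlib

/-! Products of two conjugates of a regular semisimple element in `SL₃(F)` (Sourour-type
factorisation for 3 × 3 matrices). -/

namespace Cfsg.Agent.Lib.Helper46Sourour

open Matrix

variable {F : Type*} [Field F]

/-- normal form matrix -/
def NF (x1 x2 y2 y3 : F) : Matrix (Fin 3) (Fin 3) F :=
  !![0, x1, 1; 1, x2, y2; 0, 1 + x1 * y3, y3]

theorem exists_vec (A : Matrix (Fin 3) (Fin 3) F) (hA : ¬ ∃ c : F, A = c • (1 : Matrix (Fin 3) (Fin 3) F)) :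
    ∃ (v u : Fin 3 → F), (Matrix.of ![v, A *ᵥ v, u]).det ≠ 0 := by
  by_contra h
  push Not at h
  apply hA
  have a1 := h ![1,0,0] ![0,1,0]
  have a2 := h ![1,0,0] ![0,0,1]
  have a3 := h ![0,1,0] ![1,0,0]
  have a4 := h ![0,1,0] ![0,0,1]
  have a5 := h ![0,0,1] ![1,0,0]
  have a6 := h ![0,0,1] ![0,1,0]
  have a7 := h ![1,1,0] ![0,0,1]
  have a8 := h ![1,0,1] ![0,1,0]
  simp [Matrix.det_fin_three, Matrix.mulVec, dotProduct, Fin.sum_univ_three] at a1 a2 a3 a4 a5 a6 a7 a8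
  refine ⟨A 0 0, ?_⟩
  ext i j
  fin_cases i <;> fin_cases j <;> simp [*]
  · linear_combination a7 - a2 + a4
  · linear_combination -a8 - a1 + a6

/-- first step: first column `(0,1,0)`. -/
theorem step1 (A : Matrix (Fin 3) (Fin 3) F) (hA : ¬ ∃ c : F, A = c • (1 : Matrix (Fin 3) (Fin 3) F)) :
    ∃ P : GL (Fin 3) F, ∀ i, ((P⁻¹ : GL (Fin 3) F).1 * A * P.1) i 0 = if i = 1 then 1 else 0 := by
  obtain ⟨v, u, hd⟩ := exists_vec A hA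
  set P0 : Matrix (Fin 3) (Fin 3) F := (Matrix.of ![v, A *ᵥ v, u])ᵀ with hP0
  have hdet : P0.det ≠ 0 := by rw [hP0, Matrix.det_transpose]; exact hd
  let P : GL (Fin 3) F := Matrix.GeneralLinearGroup.mkOfDetNeZero P0 hdet
  have hP : P.1 = P0 := rfl
  refine ⟨P, fun i => ?_⟩
  have c0 : P0 *ᵥ Pi.single 0 1 = v := by
    ext k; simp [hP0]
  have c1 : P0 *ᵥ Pi.single 1 1 = A *ᵥ v := by
    ext k; simp [hP0]
  have key : ((P⁻¹ : GL (Fin 3) F).1 * A * P.1) *ᵥ Pi.single 0 1 = Pi.single 1 1 := by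
    rw [hP, ← Matrix.mulVec_mulVec, c0, ← Matrix.mulVec_mulVec, ← c1, Matrix.mulVec_mulVec, ← hP]
    have : (P⁻¹ : GL (Fin 3) F).1 * P.1 = 1 := by
      rw [← Units.val_mul, inv_mul_cancel]; rfl
    rw [this, Matrix.one_mulVec]
  have := congrFun key i
  rw [Matrix.mulVec_single_one] at this
  simp only [Matrix.col_apply] at this
  rw [this]
  simp [Pi.single_apply]

theorem normal_form (A : Matrix (Fin 3) (Fin 3) F) (hdet : A.det = 1)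
    (hA : ¬ ∃ c : F, A = c • (1 : Matrix (Fin 3) (Fin 3) F)) :
    ∃ (P : GL (Fin 3) F) (x1 x2 y2 y3 : F), A = P.1 * NF x1 x2 y2 y3 * (P⁻¹ : GL (Fin 3) F).1 := by
  obtain ⟨P, hP⟩ := step1 A hA
  set N0 := (P⁻¹ : GL (Fin 3) F).1 * A * P.1 with hN0
  have hPP : P.1 * (P⁻¹ : GL (Fin 3) F).1 = 1 := by
    rw [← Units.val_mul, mul_inv_cancel]; rfl
  have hPP' : (P⁻¹ : GL (Fin 3) F).1 * P.1 = 1 := by
    rw [← Units.val_mul, inv_mul_cancel]; rfl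
  have hAN : A = P.1 * N0 * (P⁻¹ : GL (Fin 3) F).1 := by
    rw [hN0]
    calc A = (P.1 * (P⁻¹ : GL (Fin 3) F).1) * A * (P.1 * (P⁻¹ : GL (Fin 3) F).1) := by
          rw [hPP, one_mul, mul_one]
      _ = _ := by simp only [mul_assoc]
  have hdN : N0.det = 1 := by
    rw [hN0, Matrix.det_mul, Matrix.det_mul, hdet, mul_one, ← Matrix.det_mul, hPP', Matrix.det_one]
  have h00 : N0 0 0 = 0 := by simpa using hP 0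
  have h10 : N0 1 0 = 1 := by simpa using hP 1
  have h20 : N0 2 0 = 0 := by simpa using hP 2
  rw [Matrix.det_fin_three, h00, h10, h20] at hdN
  obtain ⟨s, hs⟩ : ∃ s : F, N0 0 2 - s * N0 2 2 ≠ 0 := by
    by_cases h : N0 0 2 = 0
    · refine ⟨1, ?_⟩
      intro h'
      rw [h] at hdN h'
      have : N0 2 2 = 0 := by linear_combination -h'
      rw [this] at hdN
      simp at hdN
    · exact ⟨0, by simpa using h⟩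
  set c := (N0 0 2 - s * N0 2 2)⁻¹ with hc
  have hc0 : c ≠ 0 := inv_ne_zero hs
  have hcc : c * (N0 0 2 - s * N0 2 2) = 1 := inv_mul_cancel₀ hs
  let T : GL (Fin 3) F := ⟨!![1, 0, s * c; 0, 1, 0; 0, 0, c], !![1, 0, -s; 0, 1, 0; 0, 0, c⁻¹],
    by
      ext i j
      fin_cases i <;> fin_cases j <;> simp [Matrix.mul_apply, Fin.sum_univ_three, hc0],
    by
      ext i j
      fin_cases i <;> fin_cases j <;> simp [Matrix.mul_apply, Fin.sum_univ_three, hc0]⟩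
  have hT : T.1 = !![1, 0, s * c; 0, 1, 0; 0, 0, c] := rfl
  have hT' : (T⁻¹ : GL (Fin 3) F).1 = !![1, 0, -s; 0, 1, 0; 0, 0, c⁻¹] := rfl
  have hTT : T.1 * (T⁻¹ : GL (Fin 3) F).1 = 1 := by
    rw [← Units.val_mul, mul_inv_cancel]; rfl
  have hN0e : N0 = !![0, N0 0 1, N0 0 2; 1, N0 1 1, N0 1 2; 0, N0 2 1, N0 2 2] := by
    conv_lhs => rw [Matrix.eta_fin_three N0, h00, h10, h20]
  have key : (T⁻¹ : GL (Fin 3) F).1 * N0 * T.1 =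
      NF (N0 0 1 - s * N0 2 1) (N0 1 1) (c * (N0 1 2 + s)) (N0 2 2) := by
    rw [hT, hT', NF]
    generalize N0 0 1 = x1 at *
    generalize N0 0 2 = y1 at *
    generalize N0 1 1 = x2 at *
    generalize N0 1 2 = y2 at *
    generalize N0 2 1 = x3 at *
    generalize N0 2 2 = y3 at *
    rw [hN0e]
    ext i j
    fin_cases i <;> fin_cases j <;>
      simp [Matrix.mul_apply, Fin.sum_univ_three]
    · ring
    · linear_combination hcc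
    · ring
    · rw [hc, inv_inv]
      linear_combination hdN
    · field_simp
  refine ⟨P * T, (N0 0 1 - s * N0 2 1), (N0 1 1), (c * (N0 1 2 + s)), (N0 2 2), ?_⟩
  rw [← key, hAN, _root_.mul_inv_rev, Units.val_mul, Units.val_mul]
  calc P.1 * N0 * (P⁻¹ : GL (Fin 3) F).1
      = P.1 * ((T.1 * (T⁻¹ : GL (Fin 3) F).1) * N0 * (T.1 * (T⁻¹ : GL (Fin 3) F).1)) * (P⁻¹ : GL (Fin 3) F).1 := by
        rw [hTT, one_mul, mul_one]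
    _ = _ := by simp only [mul_assoc]

/-- a matrix with `n` distinct eigenvalues is conjugate to the diagonal matrix. -/
theorem conj_diag {n : ℕ} (M : Matrix (Fin n) (Fin n) F) (β : Fin n → F) (hβ : Function.Injective β)
    (h : ∀ i, (M - Matrix.scalar (Fin n) (β i)).det = 0) :
    ∃ P : GL (Fin n) F, M = P.1 * Matrix.diagonal β * (P⁻¹ : GL (Fin n) F).1 := by
  have h1 : ∀ i, ∃ v : Fin n → F, v ≠ 0 ∧ (M - Matrix.scalar (Fin n) (β i)) *ᵥ v = 0 := fun i =>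
    Matrix.exists_mulVec_eq_zero_iff.2 (h i)
  choose v hv0 hv using h1
  have hv' : ∀ i, M *ᵥ v i = β i • v i := by
    intro i
    have := hv i
    rw [Matrix.sub_mulVec, sub_eq_zero] at this
    rw [this]
    ext k
    simp [Matrix.mulVec, dotProduct, Matrix.scalar_apply, Matrix.diagonal_apply]
  have hli : LinearIndependent F v := by
    apply Module.End.eigenvectors_linearIndependent' (Matrix.toLin' M) β hβ v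
    intro i
    refine ⟨?_, hv0 i⟩
    rw [Module.End.mem_eigenspace_iff, Matrix.toLin'_apply]
    exact hv' i
  set P0 : Matrix (Fin n) (Fin n) F := (Matrix.of v)ᵀ with hP0
  have hunit : IsUnit P0 := by
    rw [hP0, Matrix.isUnit_transpose]
    exact Matrix.linearIndependent_rows_iff_isUnit.1 hli
  obtain ⟨P, hP⟩ := hunit
  refine ⟨P, ?_⟩
  have hPP : P.1 * (P⁻¹ : GL (Fin n) F).1 = 1 := by
    rw [← Units.val_mul, mul_inv_cancel]; rfl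
  have key : M * P.1 = P.1 * Matrix.diagonal β := by
    rw [hP]
    ext i j
    rw [Matrix.mul_diagonal]
    have := congrFun (hv' j) i
    simp only [Matrix.mulVec, dotProduct, Pi.smul_apply, smul_eq_mul] at this
    simp only [Matrix.mul_apply, hP0, Matrix.transpose_apply, Matrix.of_apply]
    rw [this, mul_comm]
  rw [← key, mul_assoc, hPP, mul_one]

omit [Field F] in
theorem inj3 {b0 b1 b2 : F} (h01 : b0 ≠ b1) (h02 : b0 ≠ b2) (h12 : b1 ≠ b2) :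
    Function.Injective ![b0, b1, b2] := by
  intro i j hij
  fin_cases i <;> fin_cases j <;> first
    | rfl
    | (exfalso
       simp only [Fin.zero_eta, Fin.mk_one, Fin.reduceFinMk, Matrix.cons_val_zero, Matrix.cons_val_one,
         Matrix.cons_val] at hij
       first
         | exact h01 hij
         | exact h01 hij.symm
         | exact h02 hij
         | exact h02 hij.symm
         | exact h12 hij
         | exact h12 hij.symm)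

/-- the explicit `LU` factorisation of the normal form. -/
theorem NF_factor (a : F) (ha0 : a ≠ 0) (ha1 : a ≠ 1) (ha2 : a ≠ -1) (x1 x2 y2 y3 : F) :
    ∃ R1 R2 : GL (Fin 3) F, NF x1 x2 y2 y3 =
      (R1.1 * Matrix.diagonal ![1, a, a⁻¹] * (R1⁻¹ : GL (Fin 3) F).1) *
      (R2.1 * Matrix.diagonal ![1, a, a⁻¹] * (R2⁻¹ : GL (Fin 3) F).1) := by
  set z := a ^ 2 + x1 with hz
  set k := x2 - 1 - z * y2 with hk
  let Q : GL (Fin 3) F := ⟨!![1, -1, 0; 0, 1, 0; 0, -z, 1], !![1, 1, 0; 0, 1, 0; 0, z, 1],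
    by
      ext i j
      fin_cases i <;> fin_cases j <;> simp [Matrix.mul_apply, Fin.sum_univ_three],
    by
      ext i j
      fin_cases i <;> fin_cases j <;> simp [Matrix.mul_apply, Fin.sum_univ_three]⟩
  have hQ : Q.1 = !![1, -1, 0; 0, 1, 0; 0, -z, 1] := rfl
  have hQ' : (Q⁻¹ : GL (Fin 3) F).1 = !![1, 1, 0; 0, 1, 0; 0, z, 1] := rfl
  have hQQ : (Q⁻¹ : GL (Fin 3) F).1 * Q.1 = 1 := by
    rw [← Units.val_mul, inv_mul_cancel]; rfl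
  set L : Matrix (Fin 3) (Fin 3) F := !![1, 0, 0; 1, a, 0; z, (1 - a ^ 2 * y3 + a ^ 4 + x1 * a ^ 2) / a, a⁻¹] with hL
  set U : Matrix (Fin 3) (Fin 3) F := !![1, k - a ^ 2, 1 + y2; 0, a, -a⁻¹; 0, 0, a⁻¹] with hU
  have hβ : Function.Injective ![1, a, a⁻¹] := by
    have h3 : a * a ≠ 1 := by
      intro h
      have : (a - 1) * (a + 1) = 0 := by linear_combination h
      rcases mul_eq_zero.1 this with h | h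
      · exact ha1 (by linear_combination h)
      · exact ha2 (by linear_combination h)
    have h4 : a⁻¹ ≠ 1 := by
      intro h; exact ha1 (by rw [← inv_inv a, h, inv_one])
    have h5 : a ≠ a⁻¹ := by
      intro h
      apply h3
      nth_rewrite 2 [h]
      exact mul_inv_cancel₀ ha0
    exact inj3 (Ne.symm ha1) (Ne.symm h4) h5
  obtain ⟨S1, hS1⟩ := conj_diag L ![1, a, a⁻¹] hβ (by
    intro i
    fin_cases i <;> simp [hL, Matrix.det_fin_three, Matrix.scalar_apply])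
  obtain ⟨S2, hS2⟩ := conj_diag U ![1, a, a⁻¹] hβ (by
    intro i
    fin_cases i <;> simp [hU, Matrix.det_fin_three, Matrix.scalar_apply])
  have key : NF x1 x2 y2 y3 = Q.1 * L * U * (Q⁻¹ : GL (Fin 3) F).1 := by
    rw [hQ, hQ', hL, hU, NF]
    ext i j
    fin_cases i <;> fin_cases j <;>
      simp [Matrix.mul_apply, Fin.sum_univ_three, hk, hz] <;> field_simp <;> ring
  refine ⟨Q * S1, Q * S2, ?_⟩
  rw [key, _root_.mul_inv_rev, _root_.mul_inv_rev, Units.val_mul, Units.val_mul, Units.val_mul, Units.val_mul]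
  calc Q.1 * L * U * (Q⁻¹ : GL (Fin 3) F).1
      = Q.1 * L * ((Q⁻¹ : GL (Fin 3) F).1 * Q.1) * U * (Q⁻¹ : GL (Fin 3) F).1 := by
        rw [hQQ, mul_one]
    _ = _ := by
        conv_lhs => rw [hS1, hS2]
        simp only [mul_assoc]

theorem exists_SL_conj (x : Matrix.SpecialLinearGroup (Fin 3) F)
    (hcent : ∀ d : Fˣ, ∃ t : GL (Fin 3) F, t.1 * x.1 = x.1 * t.1 ∧ t.1.det = d) (R : GL (Fin 3) F) :
    ∃ u : Matrix.SpecialLinearGroup (Fin 3) F,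
      (u * x * u⁻¹).1 = R.1 * x.1 * (R⁻¹ : GL (Fin 3) F).1 := by
  have hdR : R.1.det ≠ 0 := by
    have := Matrix.isUnits_det_units R
    exact this.ne_zero
  obtain ⟨t, ht, hdt⟩ := hcent (Units.mk0 R.1.det hdR)⁻¹
  have hdet : ((R * t : GL (Fin 3) F).1).det = 1 := by
    rw [Units.val_mul, Matrix.det_mul, hdt]
    simp [hdR]
  let u : Matrix.SpecialLinearGroup (Fin 3) F := ⟨(R * t : GL (Fin 3) F).1, hdet⟩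
  have hu : u.1 = (R * t : GL (Fin 3) F).1 := rfl
  have hu' : (u⁻¹).1 = ((R * t)⁻¹ : GL (Fin 3) F).1 := by
    have h1 : (u⁻¹).1 * u.1 = 1 := by
      rw [← Matrix.SpecialLinearGroup.coe_mul, inv_mul_cancel]; rfl
    have h2 : u.1 * ((R * t)⁻¹ : GL (Fin 3) F).1 = 1 := by
      rw [hu, ← Units.val_mul, mul_inv_cancel]; rfl
    calc (u⁻¹).1 = (u⁻¹).1 * (u.1 * ((R * t)⁻¹ : GL (Fin 3) F).1) := by rw [h2, mul_one]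
      _ = _ := by rw [← mul_assoc, h1, one_mul]
  refine ⟨u, ?_⟩
  have htt : t.1 * (t⁻¹ : GL (Fin 3) F).1 = 1 := by
    rw [← Units.val_mul, mul_inv_cancel]; rfl
  rw [Matrix.SpecialLinearGroup.coe_mul, Matrix.SpecialLinearGroup.coe_mul, hu, hu', _root_.mul_inv_rev,
    Units.val_mul, Units.val_mul]
  calc R.1 * t.1 * x.1 * ((t⁻¹ : GL (Fin 3) F).1 * (R⁻¹ : GL (Fin 3) F).1)
      = R.1 * (t.1 * x.1) * (t⁻¹ : GL (Fin 3) F).1 * (R⁻¹ : GL (Fin 3) F).1 := by simp only [mul_assoc]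
    _ = R.1 * x.1 * (t.1 * (t⁻¹ : GL (Fin 3) F).1) * (R⁻¹ : GL (Fin 3) F).1 := by
        rw [ht]; simp only [mul_assoc]
    _ = _ := by rw [htt, mul_one]

theorem main_SL (x : Matrix.SpecialLinearGroup (Fin 3) F)
    (hcent : ∀ d : Fˣ, ∃ t : GL (Fin 3) F, t.1 * x.1 = x.1 * t.1 ∧ t.1.det = d)
    (hfac : ∀ x1 x2 y2 y3 : F, ∃ R1 R2 : GL (Fin 3) F, NF x1 x2 y2 y3 =
      (R1.1 * x.1 * (R1⁻¹ : GL (Fin 3) F).1) * (R2.1 * x.1 * (R2⁻¹ : GL (Fin 3) F).1))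
    (A : Matrix.SpecialLinearGroup (Fin 3) F)
    (hA : ¬ ∃ c : F, A.1 = c • (1 : Matrix (Fin 3) (Fin 3) F)) :
    ∃ u v : Matrix.SpecialLinearGroup (Fin 3) F, A = (u * x * u⁻¹) * (v * x * v⁻¹) := by
  obtain ⟨P, x1, x2, y2, y3, hP⟩ := normal_form A.1 A.2 hA
  obtain ⟨R1, R2, hR⟩ := hfac x1 x2 y2 y3
  obtain ⟨u, hu⟩ := exists_SL_conj x hcent (P * R1)
  obtain ⟨v, hv⟩ := exists_SL_conj x hcent (P * R2)
  refine ⟨u, v, ?_⟩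
  apply Subtype.ext
  have hPP : (P⁻¹ : GL (Fin 3) F).1 * P.1 = 1 := by
    rw [← Units.val_mul, inv_mul_cancel]; rfl
  rw [Matrix.SpecialLinearGroup.coe_mul (u * x * u⁻¹), hu, hv, hP, hR, _root_.mul_inv_rev, _root_.mul_inv_rev,
    Units.val_mul, Units.val_mul, Units.val_mul, Units.val_mul]
  calc P.1 * (R1.1 * x.1 * (R1⁻¹ : GL (Fin 3) F).1 * (R2.1 * x.1 * (R2⁻¹ : GL (Fin 3) F).1)) * (P⁻¹ : GL (Fin 3) F).1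
      = P.1 * (R1.1 * x.1 * (R1⁻¹ : GL (Fin 3) F).1 * 1 * (R2.1 * x.1 * (R2⁻¹ : GL (Fin 3) F).1)) * (P⁻¹ : GL (Fin 3) F).1 := by
        rw [mul_one]
    _ = _ := by
        rw [← hPP]; simp only [mul_assoc]

theorem main_PSL (x : Matrix.SpecialLinearGroup (Fin 3) F)
    (hcent : ∀ d : Fˣ, ∃ t : GL (Fin 3) F, t.1 * x.1 = x.1 * t.1 ∧ t.1.det = d)
    (hfac : ∀ x1 x2 y2 y3 : F, ∃ R1 R2 : GL (Fin 3) F, NF x1 x2 y2 y3 =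
      (R1.1 * x.1 * (R1⁻¹ : GL (Fin 3) F).1) * (R2.1 * x.1 * (R2⁻¹ : GL (Fin 3) F).1))
    (g : Matrix.ProjectiveSpecialLinearGroup (Fin 3) F) (hg : g ≠ 1) :
    ∃ u v : Matrix.ProjectiveSpecialLinearGroup (Fin 3) F,
      g = (u * (QuotientGroup.mk x) * u⁻¹) * (v * (QuotientGroup.mk x) * v⁻¹) := by
  obtain ⟨A, rfl⟩ := QuotientGroup.mk_surjective g
  have hA : ¬ ∃ c : F, A.1 = c • (1 : Matrix (Fin 3) (Fin 3) F) := by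
    rintro ⟨c, hc⟩
    apply hg
    rw [QuotientGroup.eq_one_iff, Matrix.SpecialLinearGroup.mem_center_iff]
    refine ⟨c, ?_, ?_⟩
    · have := A.2
      rw [hc, Matrix.det_smul, Matrix.det_one, mul_one] at this
      exact this
    · rw [hc]
      ext i j
      simp [Matrix.scalar_apply, Matrix.diagonal_apply, Matrix.one_apply]
  obtain ⟨u, v, h⟩ := main_SL x hcent hfac A hA
  refine ⟨QuotientGroup.mk u, QuotientGroup.mk v, ?_⟩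
  rw [h]
  rfl

/-- the element of order 13 for `q = 3`. -/
def X3 (F : Type*) [Field F] : Matrix (Fin 3) (Fin 3) F := !![0, 0, 1; 1, 0, 1; 0, 1, 0]


set_option maxHeartbeats 4000000 in
set_option maxRecDepth 100000 in
theorem table3 : ∀ x1 x2 y2 y3 : ZMod 3, ∃ R1 R1' R2 R2' : Matrix (Fin 3) (Fin 3) (ZMod 3),
    R1 * R1' = 1 ∧ R2 * R2' = 1 ∧ NF x1 x2 y2 y3 = R1 * X3 (ZMod 3) * R1' * (R2 * X3 (ZMod 3) * R2') := by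
  intro x1 x2 y2 y3
  fin_cases x1 <;> fin_cases x2 <;> fin_cases y2 <;> fin_cases y3
  · exact ⟨!![0, 0, 1; 0, 1, 0; 2, 0, 2], !![2, 0, 2; 0, 1, 0; 1, 0, 0], !![0, 0, 1; 1, 2, 0; 2, 0, 0], !![0, 0, 2; 0, 2, 2; 1, 0, 0], by decide, by decide, by decide⟩
  · exact ⟨!![0, 0, 1; 0, 1, 0; 1, 1, 1], !![2, 2, 1; 0, 1, 0; 1, 0, 0], !![0, 0, 1; 0, 1, 1; 1, 1, 1], !![0, 2, 1; 2, 1, 0; 1, 0, 0], by decide, by decide, by decide⟩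
  · exact ⟨!![0, 0, 1; 0, 1, 0; 1, 0, 1], !![2, 0, 1; 0, 1, 0; 1, 0, 0], !![0, 0, 1; 2, 1, 0; 1, 0, 0], !![0, 0, 1; 0, 1, 1; 1, 0, 0], by decide, by decide, by decide⟩
  · exact ⟨!![0, 0, 1; 0, 2, 0; 1, 0, 2], !![1, 0, 1; 0, 2, 0; 1, 0, 0], !![0, 0, 1; 2, 2, 1; 1, 2, 2], !![1, 1, 2; 0, 1, 1; 1, 0, 0], by decide, by decide, by decide⟩
  · exact ⟨!![0, 0, 1; 0, 1, 0; 2, 2, 2], !![2, 2, 2; 0, 1, 0; 1, 0, 0], !![0, 0, 1; 0, 2, 2; 2, 2, 2], !![0, 1, 2; 2, 2, 0; 1, 0, 0], by decide, by decide, by decide⟩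
  · exact ⟨!![0, 0, 1; 0, 1, 0; 2, 0, 0], !![0, 0, 2; 0, 1, 0; 1, 0, 0], !![0, 0, 1; 1, 1, 2; 1, 2, 2], !![1, 2, 2; 0, 2, 1; 1, 0, 0], by decide, by decide, by decide⟩
  · exact ⟨!![0, 0, 1; 0, 1, 0; 2, 2, 0], !![0, 2, 2; 0, 1, 0; 1, 0, 0], !![0, 0, 1; 2, 2, 0; 2, 0, 1], !![1, 0, 2; 2, 2, 1; 1, 0, 0], by decide, by decide, by decide⟩
  · exact ⟨!![0, 0, 1; 0, 1, 0; 1, 1, 0], !![0, 2, 1; 0, 1, 0; 1, 0, 0], !![0, 0, 1; 1, 1, 0; 1, 0, 2], !![1, 0, 1; 2, 1, 2; 1, 0, 0], by decide, by decide, by decide⟩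
  · exact ⟨!![0, 0, 1; 0, 1, 0; 1, 0, 0], !![0, 0, 1; 0, 1, 0; 1, 0, 0], !![0, 0, 1; 2, 2, 1; 2, 1, 1], !![1, 1, 1; 0, 1, 2; 1, 0, 0], by decide, by decide, by decide⟩
  · exact ⟨!![0, 0, 1; 0, 1, 0; 1, 1, 1], !![2, 2, 1; 0, 1, 0; 1, 0, 0], !![0, 0, 1; 2, 0, 2; 0, 2, 2], !![2, 2, 0; 2, 0, 2; 1, 0, 0], by decide, by decide, by decide⟩
  · exact ⟨!![0, 0, 1; 0, 1, 0; 1, 0, 1], !![2, 0, 1; 0, 1, 0; 1, 0, 0], !![0, 0, 1; 0, 1, 0; 1, 0, 1], !![2, 0, 1; 0, 1, 0; 1, 0, 0], by decide, by decide, by decide⟩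
  · exact ⟨!![0, 0, 1; 0, 1, 0; 1, 2, 2], !![1, 1, 1; 0, 1, 0; 1, 0, 0], !![0, 0, 1; 0, 2, 1; 2, 1, 2], !![0, 2, 2; 1, 2, 0; 1, 0, 0], by decide, by decide, by decide⟩
  · exact ⟨!![0, 0, 1; 0, 1, 2; 1, 2, 2], !![2, 1, 1; 1, 1, 0; 1, 0, 0], !![0, 0, 1; 0, 2, 1; 2, 2, 2], !![1, 1, 2; 1, 2, 0; 1, 0, 0], by decide, by decide, by decide⟩
  · exact ⟨!![0, 0, 1; 0, 1, 0; 1, 0, 0], !![0, 0, 1; 0, 1, 0; 1, 0, 0], !![0, 0, 1; 2, 1, 0; 1, 0, 0], !![0, 0, 1; 0, 1, 1; 1, 0, 0], by decide, by decide, by decide⟩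
  · exact ⟨!![0, 0, 1; 0, 1, 0; 1, 1, 0], !![0, 2, 1; 0, 1, 0; 1, 0, 0], !![0, 0, 1; 1, 0, 1; 0, 1, 1], !![2, 1, 0; 2, 0, 1; 1, 0, 0], by decide, by decide, by decide⟩
  · exact ⟨!![0, 0, 1; 0, 1, 1; 1, 2, 1], !![1, 1, 1; 2, 1, 0; 1, 0, 0], !![0, 0, 1; 0, 2, 1; 2, 0, 2], !![2, 0, 2; 1, 2, 0; 1, 0, 0], by decide, by decide, by decide⟩
  · exact ⟨!![0, 0, 1; 0, 1, 2; 1, 2, 0], !![1, 1, 1; 1, 1, 0; 1, 0, 0], !![0, 0, 1; 2, 2, 2; 2, 0, 1], !![1, 0, 2; 1, 2, 1; 1, 0, 0], by decide, by decide, by decide⟩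
  · exact ⟨!![0, 0, 1; 0, 1, 0; 2, 1, 2], !![2, 1, 2; 0, 1, 0; 1, 0, 0], !![0, 0, 1; 1, 0, 2; 0, 2, 1], !![1, 1, 0; 1, 0, 2; 1, 0, 0], by decide, by decide, by decide⟩
  · exact ⟨!![0, 0, 1; 0, 1, 0; 1, 0, 0], !![0, 0, 1; 0, 1, 0; 1, 0, 0], !![0, 0, 1; 0, 1, 0; 1, 0, 1], !![2, 0, 1; 0, 1, 0; 1, 0, 0], by decide, by decide, by decide⟩
  · exact ⟨!![0, 0, 1; 0, 1, 0; 2, 2, 0], !![0, 2, 2; 0, 1, 0; 1, 0, 0], !![0, 0, 1; 2, 0, 2; 0, 2, 2], !![2, 2, 0; 2, 0, 2; 1, 0, 0], by decide, by decide, by decide⟩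
  · exact ⟨!![0, 0, 1; 0, 1, 0; 1, 1, 1], !![2, 2, 1; 0, 1, 0; 1, 0, 0], !![0, 0, 1; 2, 2, 0; 2, 0, 1], !![1, 0, 2; 2, 2, 1; 1, 0, 0], by decide, by decide, by decide⟩
  · exact ⟨!![0, 0, 1; 0, 1, 0; 1, 2, 2], !![1, 1, 1; 0, 1, 0; 1, 0, 0], !![0, 0, 1; 1, 0, 2; 0, 2, 1], !![1, 1, 0; 1, 0, 2; 1, 0, 0], by decide, by decide, by decide⟩
  · exact ⟨!![0, 0, 1; 0, 1, 1; 1, 0, 0], !![0, 0, 1; 2, 1, 0; 1, 0, 0], !![0, 0, 1; 1, 2, 0; 2, 2, 0], !![0, 2, 1; 0, 1, 1; 1, 0, 0], by decide, by decide, by decide⟩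
  · exact ⟨!![0, 0, 1; 0, 2, 0; 1, 0, 0], !![0, 0, 1; 0, 2, 0; 1, 0, 0], !![0, 0, 1; 2, 1, 0; 2, 0, 0], !![0, 0, 2; 0, 1, 2; 1, 0, 0], by decide, by decide, by decide⟩
  · exact ⟨!![0, 0, 1; 0, 1, 0; 1, 0, 2], !![1, 0, 1; 0, 1, 0; 1, 0, 0], !![0, 0, 1; 2, 1, 0; 1, 0, 0], !![0, 0, 1; 0, 1, 1; 1, 0, 0], by decide, by decide, by decide⟩
  · exact ⟨!![0, 0, 1; 0, 1, 0; 2, 0, 0], !![0, 0, 2; 0, 1, 0; 1, 0, 0], !![0, 0, 1; 1, 2, 0; 2, 0, 0], !![0, 0, 2; 0, 2, 2; 1, 0, 0], by decide, by decide, by decide⟩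
  · exact ⟨!![0, 0, 1; 1, 0, 0; 2, 2, 2], !![0, 1, 0; 2, 2, 2; 1, 0, 0], !![0, 0, 1; 2, 1, 0; 1, 1, 1], !![1, 1, 2; 1, 2, 2; 1, 0, 0], by decide, by decide, by decide⟩
  · exact ⟨!![0, 0, 1; 0, 2, 0; 1, 0, 2], !![1, 0, 1; 0, 2, 0; 1, 0, 0], !![0, 0, 1; 2, 2, 1; 2, 0, 1], !![1, 0, 2; 0, 2, 1; 1, 0, 0], by decide, by decide, by decide⟩
  · exact ⟨!![0, 0, 1; 0, 1, 1; 2, 1, 1], !![0, 1, 2; 2, 1, 0; 1, 0, 0], !![0, 0, 1; 1, 2, 1; 1, 1, 2], !![0, 2, 2; 1, 1, 2; 1, 0, 0], by decide, by decide, by decide⟩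
  · exact ⟨!![0, 0, 1; 0, 1, 0; 2, 1, 2], !![2, 1, 2; 0, 1, 0; 1, 0, 0], !![0, 0, 1; 0, 2, 1; 2, 2, 1], !![0, 1, 2; 1, 2, 0; 1, 0, 0], by decide, by decide, by decide⟩
  · exact ⟨!![0, 0, 1; 0, 1, 0; 1, 0, 2], !![1, 0, 1; 0, 1, 0; 1, 0, 0], !![0, 0, 1; 2, 1, 0; 2, 2, 0], !![0, 1, 1; 0, 2, 1; 1, 0, 0], by decide, by decide, by decide⟩
  · exact ⟨!![0, 0, 1; 0, 1, 1; 2, 2, 0], !![1, 2, 2; 2, 1, 0; 1, 0, 0], !![0, 0, 1; 2, 0, 0; 1, 2, 2], !![0, 2, 0; 2, 2, 2; 1, 0, 0], by decide, by decide, by decide⟩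
  · exact ⟨!![0, 0, 1; 0, 1, 0; 2, 0, 2], !![2, 0, 2; 0, 1, 0; 1, 0, 0], !![0, 0, 1; 0, 2, 0; 2, 1, 2], !![2, 2, 2; 0, 2, 0; 1, 0, 0], by decide, by decide, by decide⟩
  · exact ⟨!![0, 0, 1; 0, 1, 0; 1, 2, 2], !![1, 1, 1; 0, 1, 0; 1, 0, 0], !![0, 0, 1; 0, 2, 1; 2, 2, 1], !![0, 1, 2; 1, 2, 0; 1, 0, 0], by decide, by decide, by decide⟩
  · exact ⟨!![0, 0, 1; 0, 1, 0; 1, 0, 1], !![2, 0, 1; 0, 1, 0; 1, 0, 0], !![0, 0, 1; 0, 1, 0; 1, 2, 1], !![2, 1, 1; 0, 1, 0; 1, 0, 0], by decide, by decide, by decide⟩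
  · exact ⟨!![0, 0, 1; 0, 1, 0; 1, 1, 1], !![2, 2, 1; 0, 1, 0; 1, 0, 0], !![0, 0, 1; 2, 0, 2; 1, 2, 0], !![2, 2, 0; 2, 2, 2; 1, 0, 0], by decide, by decide, by decide⟩
  · exact ⟨!![0, 0, 1; 0, 1, 0; 2, 1, 2], !![2, 1, 2; 0, 1, 0; 1, 0, 0], !![0, 0, 1; 1, 0, 2; 2, 2, 2], !![1, 1, 0; 1, 2, 2; 1, 0, 0], by decide, by decide, by decide⟩
  · exact ⟨!![0, 0, 1; 0, 1, 0; 1, 0, 0], !![0, 0, 1; 0, 1, 0; 1, 0, 0], !![0, 0, 1; 2, 1, 0; 2, 2, 0], !![0, 1, 1; 0, 2, 1; 1, 0, 0], by decide, by decide, by decide⟩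
  · exact ⟨!![0, 0, 1; 0, 1, 1; 2, 1, 2], !![1, 1, 2; 2, 1, 0; 1, 0, 0], !![0, 0, 1; 1, 0, 0; 2, 2, 1], !![0, 1, 0; 1, 2, 2; 1, 0, 0], by decide, by decide, by decide⟩
  · exact ⟨!![0, 0, 1; 0, 1, 0; 1, 1, 0], !![0, 2, 1; 0, 1, 0; 1, 0, 0], !![0, 0, 1; 1, 1, 0; 0, 2, 2], !![1, 1, 1; 2, 0, 2; 1, 0, 0], by decide, by decide, by decide⟩
  · exact ⟨!![0, 0, 1; 0, 1, 0; 2, 0, 1], !![1, 0, 2; 0, 1, 0; 1, 0, 0], !![0, 0, 1; 0, 2, 0; 2, 1, 2], !![2, 2, 2; 0, 2, 0; 1, 0, 0], by decide, by decide, by decide⟩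
  · exact ⟨!![0, 0, 1; 0, 1, 0; 1, 0, 0], !![0, 0, 1; 0, 1, 0; 1, 0, 0], !![0, 0, 1; 2, 2, 1; 0, 2, 0], !![1, 2, 1; 0, 0, 2; 1, 0, 0], by decide, by decide, by decide⟩
  · exact ⟨!![0, 0, 1; 0, 1, 0; 1, 0, 0], !![0, 0, 1; 0, 1, 0; 1, 0, 0], !![0, 0, 1; 0, 1, 0; 1, 2, 1], !![2, 1, 1; 0, 1, 0; 1, 0, 0], by decide, by decide, by decide⟩
  · exact ⟨!![0, 0, 1; 0, 1, 0; 1, 1, 1], !![2, 2, 1; 0, 1, 0; 1, 0, 0], !![0, 0, 1; 2, 2, 0; 0, 1, 1], !![1, 2, 2; 2, 0, 1; 1, 0, 0], by decide, by decide, by decide⟩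
  · exact ⟨!![0, 0, 1; 0, 1, 0; 1, 1, 0], !![0, 2, 1; 0, 1, 0; 1, 0, 0], !![0, 0, 1; 0, 2, 2; 2, 0, 0], !![0, 0, 2; 2, 2, 0; 1, 0, 0], by decide, by decide, by decide⟩
  · exact ⟨!![0, 0, 1; 0, 1, 0; 2, 0, 1], !![1, 0, 2; 0, 1, 0; 1, 0, 0], !![0, 0, 1; 1, 1, 2; 0, 1, 0], !![1, 1, 2; 0, 0, 1; 1, 0, 0], by decide, by decide, by decide⟩
  · exact ⟨!![0, 0, 1; 0, 1, 0; 1, 2, 2], !![1, 1, 1; 0, 1, 0; 1, 0, 0], !![0, 0, 1; 1, 0, 2; 2, 2, 2], !![1, 1, 0; 1, 2, 2; 1, 0, 0], by decide, by decide, by decide⟩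
  · exact ⟨!![0, 0, 1; 0, 1, 1; 2, 0, 0], !![0, 0, 2; 2, 1, 0; 1, 0, 0], !![0, 0, 1; 2, 2, 1; 0, 1, 0], !![1, 2, 2; 0, 0, 1; 1, 0, 0], by decide, by decide, by decide⟩
  · exact ⟨!![0, 0, 1; 0, 1, 0; 2, 0, 0], !![0, 0, 2; 0, 1, 0; 1, 0, 0], !![0, 0, 1; 0, 2, 0; 2, 1, 2], !![2, 2, 2; 0, 2, 0; 1, 0, 0], by decide, by decide, by decide⟩
  · exact ⟨!![0, 0, 1; 0, 1, 0; 2, 0, 2], !![2, 0, 2; 0, 1, 0; 1, 0, 0], !![0, 0, 1; 1, 1, 2; 0, 1, 0], !![1, 1, 2; 0, 0, 1; 1, 0, 0], by decide, by decide, by decide⟩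
  · exact ⟨!![0, 0, 1; 0, 1, 1; 2, 2, 1], !![2, 2, 2; 2, 1, 0; 1, 0, 0], !![0, 0, 1; 2, 2, 2; 0, 2, 2], !![0, 2, 1; 2, 0, 2; 1, 0, 0], by decide, by decide, by decide⟩
  · exact ⟨!![0, 0, 1; 0, 1, 0; 1, 1, 1], !![2, 2, 1; 0, 1, 0; 1, 0, 0], !![0, 0, 1; 0, 1, 1; 1, 0, 0], !![0, 0, 1; 2, 1, 0; 1, 0, 0], by decide, by decide, by decide⟩
  · exact ⟨!![0, 0, 1; 0, 1, 1; 2, 0, 2], !![2, 0, 2; 2, 1, 0; 1, 0, 0], !![0, 0, 1; 2, 2, 1; 0, 1, 0], !![1, 2, 2; 0, 0, 1; 1, 0, 0], by decide, by decide, by decide⟩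
  · exact ⟨!![0, 0, 1; 0, 1, 0; 1, 0, 1], !![2, 0, 1; 0, 1, 0; 1, 0, 0], !![0, 0, 1; 2, 1, 0; 2, 2, 0], !![0, 1, 1; 0, 2, 1; 1, 0, 0], by decide, by decide, by decide⟩
  · exact ⟨!![0, 0, 1; 0, 1, 0; 1, 2, 2], !![1, 1, 1; 0, 1, 0; 1, 0, 0], !![0, 0, 1; 1, 2, 2; 0, 1, 2], !![2, 1, 1; 1, 0, 1; 1, 0, 0], by decide, by decide, by decide⟩
  · exact ⟨!![0, 0, 1; 0, 1, 1; 1, 0, 0], !![0, 0, 1; 2, 1, 0; 1, 0, 0], !![0, 0, 1; 1, 2, 0; 0, 1, 0], !![0, 1, 1; 0, 0, 1; 1, 0, 0], by decide, by decide, by decide⟩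
  · exact ⟨!![0, 0, 1; 0, 1, 0; 1, 0, 0], !![0, 0, 1; 0, 1, 0; 1, 0, 0], !![0, 0, 1; 2, 2, 1; 1, 0, 2], !![1, 0, 1; 0, 2, 2; 1, 0, 0], by decide, by decide, by decide⟩
  · exact ⟨!![0, 0, 1; 0, 1, 1; 1, 0, 2], !![1, 0, 1; 2, 1, 0; 1, 0, 0], !![0, 0, 1; 1, 2, 0; 0, 1, 0], !![0, 1, 1; 0, 0, 1; 1, 0, 0], by decide, by decide, by decide⟩
  · exact ⟨!![0, 0, 1; 0, 1, 0; 1, 0, 1], !![2, 0, 1; 0, 1, 0; 1, 0, 0], !![0, 0, 1; 0, 1, 0; 1, 1, 1], !![2, 2, 1; 0, 1, 0; 1, 0, 0], by decide, by decide, by decide⟩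
  · exact ⟨!![0, 0, 1; 0, 1, 0; 1, 2, 1], !![2, 1, 1; 0, 1, 0; 1, 0, 0], !![0, 0, 1; 2, 1, 1; 0, 2, 1], !![2, 2, 2; 1, 0, 2; 1, 0, 0], by decide, by decide, by decide⟩
  · exact ⟨!![0, 0, 1; 0, 1, 1; 2, 1, 1], !![0, 1, 2; 2, 1, 0; 1, 0, 0], !![0, 0, 1; 1, 1, 1; 2, 1, 0], !![1, 2, 1; 1, 2, 2; 1, 0, 0], by decide, by decide, by decide⟩
  · exact ⟨!![0, 0, 1; 0, 1, 1; 2, 0, 1], !![1, 0, 2; 2, 1, 0; 1, 0, 0], !![0, 0, 1; 0, 2, 0; 2, 1, 2], !![2, 2, 2; 0, 2, 0; 1, 0, 0], by decide, by decide, by decide⟩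
  · exact ⟨!![0, 0, 1; 0, 1, 0; 1, 2, 2], !![1, 1, 1; 0, 1, 0; 1, 0, 0], !![0, 0, 1; 1, 0, 2; 1, 2, 0], !![1, 1, 0; 1, 1, 2; 1, 0, 0], by decide, by decide, by decide⟩
  · exact ⟨!![0, 0, 1; 0, 1, 0; 2, 1, 1], !![1, 1, 2; 0, 1, 0; 1, 0, 0], !![0, 0, 1; 2, 0, 1; 2, 1, 0], !![1, 2, 0; 1, 2, 1; 1, 0, 0], by decide, by decide, by decide⟩
  · exact ⟨!![0, 0, 1; 0, 1, 1; 1, 1, 0], !![1, 2, 1; 2, 1, 0; 1, 0, 0], !![0, 0, 1; 2, 0, 0; 2, 2, 2], !![0, 2, 0; 2, 1, 2; 1, 0, 0], by decide, by decide, by decide⟩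
  · exact ⟨!![0, 0, 1; 0, 1, 0; 2, 0, 1], !![1, 0, 2; 0, 1, 0; 1, 0, 0], !![0, 0, 1; 1, 2, 0; 0, 2, 0], !![0, 1, 2; 0, 0, 2; 1, 0, 0], by decide, by decide, by decide⟩
  · exact ⟨!![0, 0, 1; 0, 1, 0; 1, 0, 0], !![0, 0, 1; 0, 1, 0; 1, 0, 0], !![0, 0, 1; 0, 1, 0; 1, 1, 1], !![2, 2, 1; 0, 1, 0; 1, 0, 0], by decide, by decide, by decide⟩
  · exact ⟨!![0, 0, 1; 0, 1, 0; 1, 1, 0], !![0, 2, 1; 0, 1, 0; 1, 0, 0], !![0, 0, 1; 0, 2, 2; 2, 1, 1], !![0, 2, 2; 2, 2, 0; 1, 0, 0], by decide, by decide, by decide⟩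
  · exact ⟨!![0, 0, 1; 0, 1, 0; 2, 1, 1], !![1, 1, 2; 0, 1, 0; 1, 0, 0], !![0, 0, 1; 0, 1, 2; 1, 0, 0], !![0, 0, 1; 1, 1, 0; 1, 0, 0], by decide, by decide, by decide⟩
  · exact ⟨!![0, 0, 1; 0, 1, 0; 2, 0, 2], !![2, 0, 2; 0, 1, 0; 1, 0, 0], !![0, 0, 1; 1, 2, 0; 0, 2, 0], !![0, 1, 2; 0, 0, 2; 1, 0, 0], by decide, by decide, by decide⟩
  · exact ⟨!![0, 0, 1; 0, 1, 0; 2, 0, 1], !![1, 0, 2; 0, 1, 0; 1, 0, 0], !![0, 0, 1; 0, 2, 0; 2, 2, 2], !![2, 1, 2; 0, 2, 0; 1, 0, 0], by decide, by decide, by decide⟩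
  · exact ⟨!![0, 0, 1; 0, 2, 1; 1, 2, 0], !![1, 2, 1; 1, 2, 0; 1, 0, 0], !![0, 0, 1; 2, 2, 2; 0, 1, 1], !![0, 2, 2; 2, 0, 1; 1, 0, 0], by decide, by decide, by decide⟩
  · exact ⟨!![0, 0, 1; 0, 1, 0; 1, 0, 2], !![1, 0, 1; 0, 1, 0; 1, 0, 0], !![0, 0, 1; 2, 1, 0; 0, 1, 0], !![0, 2, 1; 0, 0, 1; 1, 0, 0], by decide, by decide, by decide⟩
  · exact ⟨!![0, 0, 1; 0, 1, 0; 2, 2, 2], !![2, 2, 2; 0, 1, 0; 1, 0, 0], !![0, 0, 1; 1, 0, 1; 1, 1, 2], !![2, 1, 0; 2, 2, 1; 1, 0, 0], by decide, by decide, by decide⟩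
  · exact ⟨!![0, 0, 1; 1, 1, 0; 0, 1, 0], !![0, 1, 2; 0, 0, 1; 1, 0, 0], !![0, 0, 1; 2, 2, 1; 0, 1, 2], !![0, 2, 2; 1, 0, 1; 1, 0, 0], by decide, by decide, by decide⟩
  · exact ⟨!![0, 0, 1; 0, 1, 0; 1, 2, 1], !![2, 1, 1; 0, 1, 0; 1, 0, 0], !![0, 0, 1; 0, 1, 2; 1, 0, 0], !![0, 0, 1; 1, 1, 0; 1, 0, 0], by decide, by decide, by decide⟩
  · exact ⟨!![0, 0, 1; 0, 1, 0; 2, 2, 0], !![0, 2, 2; 0, 1, 0; 1, 0, 0], !![0, 0, 1; 2, 2, 0; 1, 2, 1], !![1, 1, 2; 2, 1, 1; 1, 0, 0], by decide, by decide, by decide⟩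
  · exact ⟨!![0, 0, 1; 0, 1, 0; 1, 0, 1], !![2, 0, 1; 0, 1, 0; 1, 0, 0], !![0, 0, 1; 2, 1, 0; 0, 1, 0], !![0, 2, 1; 0, 0, 1; 1, 0, 0], by decide, by decide, by decide⟩
  · exact ⟨!![0, 0, 1; 0, 1, 0; 1, 1, 0], !![0, 2, 1; 0, 1, 0; 1, 0, 0], !![0, 0, 1; 1, 0, 1; 1, 1, 2], !![2, 1, 0; 2, 2, 1; 1, 0, 0], by decide, by decide, by decide⟩
  · exact ⟨!![0, 0, 1; 0, 1, 0; 1, 0, 0], !![0, 0, 1; 0, 1, 0; 1, 0, 0], !![0, 0, 1; 2, 1, 0; 0, 1, 0], !![0, 2, 1; 0, 0, 1; 1, 0, 0], by decide, by decide, by decide⟩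
  · exact ⟨!![0, 0, 1; 0, 1, 1; 2, 0, 0], !![0, 0, 2; 2, 1, 0; 1, 0, 0], !![0, 0, 1; 2, 2, 1; 1, 2, 2], !![1, 1, 2; 0, 1, 1; 1, 0, 0], by decide, by decide, by decide⟩

end Cfsg.Agent.Lib.Helper46Sourour
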