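import Mathlib

set_option autoImplicit false

namespace Cfsg.Agent.Lib.Helper47Thom

/-! General tools for order types: the number of solutions of `x ^ d = 1`, its multiplicativity on
products, fibre products over a common quotient, and split cyclic extensions. -/

/-- number of solutions of `x ^ d = 1`. -/
noncomputable def sol (X : Type) [Group X] (d : ℕ) : ℕ := Nat.card {x : X // x ^ d = 1}

theorem sol_prod (X Y : Type) [Group X] [Group Y] (d : ℕ) :
    sol (X × Y) d = sol X d * sol Y d := by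
  unfold sol
  rw [← Nat.card_prod]
  exact Nat.card_congr
    { toFun := fun x => (⟨x.1.1, congrArg Prod.fst x.2⟩, ⟨x.1.2, congrArg Prod.snd x.2⟩)
      invFun := fun p => ⟨(p.1.1, p.2.1), Prod.ext p.1.2 p.2.2⟩
      left_inv := fun _ => rfl
      right_inv := fun _ => rfl }

theorem sol_pi (X : Type) [Group X] (k d : ℕ) : sol (Fin k → X) d = sol X d ^ k := by
  unfold sol
  have h := Nat.card_fun (α := Fin k) (β := {x : X // x ^ d = 1})
  rw [Nat.card_eq_fintype_card (α := Fin k), Fintype.card_fin] at h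
  rw [← h]
  exact Nat.card_congr
    { toFun := fun x i => ⟨x.1 i, congrFun x.2 i⟩
      invFun := fun p => ⟨fun i => (p i).1, funext fun i => (p i).2⟩
      left_inv := fun _ => rfl
      right_inv := fun _ => rfl }

theorem sol_gcd {X : Type} [Group X] {e : ℕ} (he : ∀ x : X, x ^ e = 1) (n : ℕ) :
    sol X n = sol X (Nat.gcd n e) := by
  unfold sol
  refine Nat.card_congr (Equiv.subtypeEquivRight fun x => ?_)
  rw [← orderOf_dvd_iff_pow_eq_one, ← orderOf_dvd_iff_pow_eq_one, Nat.dvd_gcd_iff]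
  exact ⟨fun h => ⟨h, orderOf_dvd_of_pow_eq_one (he x)⟩, fun h => h.1⟩

theorem sol_eq_sum_ord (X : Type) [Group X] [Finite X] {n : ℕ} (hn : n ≠ 0) :
    sol X n = ∑ m ∈ n.divisors, Nat.card {x : X // orderOf x = m} := by
  classical
  have := Fintype.ofFinite X
  unfold sol
  rw [Nat.card_eq_fintype_card, Fintype.card_subtype]
  convert (sum_card_orderOf_eq_card_pow_eq_one (G := X) hn).symm using 2 with m hm
  rw [Nat.card_eq_fintype_card, Fintype.card_subtype]

theorem ord_eq_of_sol_eq {X Y : Type} [Group X] [Group Y] [Finite X] [Finite Y]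
    (h : ∀ n, sol X n = sol Y n) (n : ℕ) :
    Nat.card {x : X // orderOf x = n} = Nat.card {y : Y // orderOf y = n} := by
  induction n using Nat.strong_induction_on with
  | _ n ih =>
    rcases Nat.eq_zero_or_pos n with rfl | hn
    · have h1 : IsEmpty {x : X // orderOf x = 0} :=
        ⟨fun x => (orderOf_pos x.1).ne' x.2⟩
      have h2 : IsEmpty {y : Y // orderOf y = 0} :=
        ⟨fun x => (orderOf_pos x.1).ne' x.2⟩
      rw [Nat.card_of_isEmpty, Nat.card_of_isEmpty]
    · have hX := sol_eq_sum_ord X hn.ne'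
      have hY := sol_eq_sum_ord Y hn.ne'
      rw [← Nat.cons_self_properDivisors hn.ne', Finset.sum_cons] at hX hY
      have hs : ∑ m ∈ n.properDivisors, Nat.card {x : X // orderOf x = m}
          = ∑ m ∈ n.properDivisors, Nat.card {y : Y // orderOf y = m} :=
        Finset.sum_congr rfl fun m hm => ih m (Nat.mem_properDivisors.1 hm).2
      have := h n
      omega

/-! ### solvability of powers -/

theorem derivedSeries_pi_le (ι X : Type) [Group X] (n : ℕ) :
    derivedSeries (ι → X) n ≤ Subgroup.pi Set.univ (fun _ => derivedSeries X n) := by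
  induction n with
  | zero => intro x _ i _; exact Subgroup.mem_top _
  | succ n ih =>
    rw [derivedSeries_succ]
    refine (Subgroup.commutator_mono ih ih).trans ?_
    exact Subgroup.commutator_pi_pi_le _ _

instance isSolvable_pi (ι X : Type) [Group X] [hX : Group.IsSolvable X] :
    Group.IsSolvable (ι → X) := by
  obtain ⟨n, hn⟩ := hX
  refine ⟨n, ?_⟩
  rw [eq_bot_iff]
  intro x hx
  have := derivedSeries_pi_le ι X n hx
  rw [Subgroup.mem_bot]
  funext i
  have h2 : x i ∈ derivedSeries X n := this i (Set.mem_univ i)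
  rw [hn, Subgroup.mem_bot] at h2
  exact h2

/-! ### groups over a quotient and fibre products -/

/-- number of solutions of `y ^ d = 1` in the fibre of `π` over `q`. -/
noncomputable def solOver {Y Q : Type} [Group Y] [Group Q] (π : Y →* Q) (d : ℕ) (q : Q) : ℕ :=
  Nat.card {y : Y // π y = q ∧ y ^ d = 1}

theorem sol_eq_sum {Y Q : Type} [Group Y] [Group Q] [Finite Y] [Fintype Q] (π : Y →* Q) (d : ℕ) :
    sol Y d = ∑ q, solOver π d q := by
  unfold sol solOver
  rw [← Nat.card_sigma]
  exact Nat.card_congr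
    { toFun := fun y => ⟨π y.1, ⟨y.1, rfl, y.2⟩⟩
      invFun := fun p => ⟨p.2.1, p.2.2.2⟩
      left_inv := fun _ => rfl
      right_inv := by
        rintro ⟨q, y, rfl, hy⟩
        rfl }

section fib
variable {Y₁ Y₂ Q : Type} [Group Y₁] [Group Y₂] [Group Q]

/-- the fibre product of two groups over `Q`. -/
def fib (π₁ : Y₁ →* Q) (π₂ : Y₂ →* Q) : Subgroup (Y₁ × Y₂) :=
  (π₁.comp (MonoidHom.fst Y₁ Y₂)).eqLocus (π₂.comp (MonoidHom.snd Y₁ Y₂))

/-- the structure map of the fibre product. -/
def fibHom (π₁ : Y₁ →* Q) (π₂ : Y₂ →* Q) : fib π₁ π₂ →* Q :=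
  (π₁.comp (MonoidHom.fst Y₁ Y₂)).comp (fib π₁ π₂).subtype

theorem solOver_fib (π₁ : Y₁ →* Q) (π₂ : Y₂ →* Q) (d : ℕ) (q : Q) :
    solOver (fibHom π₁ π₂) d q = solOver π₁ d q * solOver π₂ d q := by
  unfold solOver
  rw [← Nat.card_prod]
  exact Nat.card_congr
    { toFun := fun x => (⟨x.1.1.1, x.2.1, congrArg (fun z => z.1.1) x.2.2⟩,
        ⟨x.1.1.2, (show π₂ x.1.1.2 = π₁ x.1.1.1 from x.1.2.symm).trans x.2.1,
          congrArg (fun z => z.1.2) x.2.2⟩)
      invFun := fun p => ⟨⟨(p.1.1, p.2.1), (show π₁ p.1.1 = π₂ p.2.1 from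
          p.1.2.1.trans p.2.2.1.symm)⟩, p.1.2.1, Subtype.ext (Prod.ext p.1.2.2 p.2.2.2)⟩
      left_inv := fun _ => rfl
      right_inv := fun _ => rfl }

theorem fib_pow_eq_one {π₁ : Y₁ →* Q} {π₂ : Y₂ →* Q} {e : ℕ} (h₁ : ∀ y : Y₁, y ^ e = 1)
    (h₂ : ∀ y : Y₂, y ^ e = 1) (x : fib π₁ π₂) : x ^ e = 1 :=
  Subtype.ext (Prod.ext (h₁ _) (h₂ _))

end fib

/-! ### split extensions by a cyclic group -/

/-- the action of `ZMod m` through the powers of an automorphism of order dividing `m`. -/
def cycHom {N : Type} [Group N] (α : MulAut N) (m : ℕ) [NeZero m] (h : α ^ m = 1) :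
    Multiplicative (ZMod m) →* MulAut N where
  toFun i := α ^ (Multiplicative.toAdd i).val
  map_one' := by simp
  map_mul' i j := by
    rw [← pow_add, toAdd_mul, ZMod.val_add, ← pow_eq_pow_mod _ h]

/-- the split extension `N ⋊ C_m`, the generator acting as `α`. -/
abbrev Cyc {N : Type} [Group N] (α : MulAut N) (m : ℕ) [NeZero m] (h : α ^ m = 1) : Type :=
  N ⋊[cycHom α m h] Multiplicative (ZMod m)

instance instFintypeCyc {N : Type} [Group N] [Fintype N] (α : MulAut N) (m : ℕ) [NeZero m]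
    (h : α ^ m = 1) : Fintype (Cyc α m h) :=
  Fintype.ofEquiv _ SemidirectProduct.equivProd.symm

instance instSolvableCyc {N : Type} [Group N] [Group.IsSolvable N] (α : MulAut N) (m : ℕ) [NeZero m]
    (h : α ^ m = 1) : Group.IsSolvable (Cyc α m h) :=
  Group.isSolvable_of_ker_le_range (SemidirectProduct.inl) (SemidirectProduct.rightHom)
    (SemidirectProduct.range_inl_eq_ker_rightHom).ge

/-- the structure map `N ⋊ C_m → C_m`. -/
abbrev cycPr {N : Type} [Group N] (α : MulAut N) (m : ℕ) [NeZero m] (h : α ^ m = 1) :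
    Cyc α m h →* Multiplicative (ZMod m) := SemidirectProduct.rightHom

/-- computable count of the solutions of `y ^ d = 1` in a coset of `N`. -/
def cnt {N : Type} [Group N] [Fintype N] [DecidableEq N] (α : MulAut N) (m : ℕ) [NeZero m]
    (h : α ^ m = 1) (d : ℕ) (q : Multiplicative (ZMod m)) : ℕ :=
  (Finset.univ.filter (fun b : N => (⟨b, q⟩ : Cyc α m h) ^ d = 1)).card

theorem solOver_cyc {N : Type} [Group N] [Fintype N] [DecidableEq N] (α : MulAut N) (m : ℕ)
    [NeZero m] (h : α ^ m = 1) (d : ℕ) (q : Multiplicative (ZMod m)) :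
    solOver (cycPr α m h) d q = cnt α m h d q := by
  unfold solOver cnt
  rw [← Fintype.card_subtype, ← Nat.card_eq_fintype_card]
  exact Nat.card_congr
    { toFun := fun y => ⟨y.1.left, by
        have h1 : y.1.right = q := y.2.1
        have h2 : (⟨y.1.left, q⟩ : Cyc α m h) = y.1 := SemidirectProduct.ext rfl h1.symm
        rw [h2]; exact y.2.2⟩
      invFun := fun b => ⟨⟨b.1, q⟩, rfl, b.2⟩
      left_inv := by
        rintro ⟨⟨b, q'⟩, h1, h2⟩
        have h1' : q' = q := h1
        subst h1'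
        rfl
      right_inv := fun _ => rfl }

/-- computable count of all solutions. -/
theorem sol_eq_card (X : Type) [Group X] [Fintype X] [DecidableEq X] (d : ℕ) :
    sol X d = (Finset.univ.filter (fun x : X => x ^ d = 1)).card := by
  unfold sol
  rw [Nat.card_eq_fintype_card, Fintype.card_subtype]

/-- multiplication by a unit of `ZMod n`. -/
def mulU (n : ℕ) (u v : ZMod n) (h : u * v = 1) : ZMod n ≃+ ZMod n where
  toFun x := u * x
  invFun x := v * x
  left_inv x := by show v * (u * x) = x; rw [← mul_assoc, mul_comm v u, h, one_mul]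
  right_inv x := by show u * (v * x) = x; rw [← mul_assoc, h, one_mul]
  map_add' := mul_add u

/-- multiplication by a unit of `ZMod n`, as an automorphism of the multiplicative copy. -/
def bZ (n : ℕ) (u v : ZMod n) (h : u * v = 1) : MulAut (Multiplicative (ZMod n)) :=
  AddEquiv.toMultiplicative (mulU n u v h)

/-! ### exponent dividing `84` -/

/-- the exponent of `X` divides `84`. -/
class Exp84 (X : Type) [Group X] : Prop where
  pow : ∀ x : X, x ^ 84 = 1

instance exp84_prod (X Y : Type) [Group X] [Group Y] [Exp84 X] [Exp84 Y] : Exp84 (X × Y) :=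
  ⟨fun x => Prod.ext (Exp84.pow x.1) (Exp84.pow x.2)⟩

instance exp84_pi (ι X : Type) [Group X] [Exp84 X] : Exp84 (ι → X) :=
  ⟨fun x => funext fun i => Exp84.pow (x i)⟩

instance exp84_fib {Y₁ Y₂ Q : Type} [Group Y₁] [Group Y₂] [Group Q] [Exp84 Y₁] [Exp84 Y₂]
    (π₁ : Y₁ →* Q) (π₂ : Y₂ →* Q) : Exp84 (fib π₁ π₂) :=
  ⟨fib_pow_eq_one Exp84.pow Exp84.pow⟩

theorem sol_eq_of_divisors {X Y : Type} [Group X] [Group Y] [Exp84 X] [Exp84 Y]
    (h : ∀ d ∈ ({1, 2, 3, 4, 6, 7, 12, 14, 21, 28, 42, 84} : Finset ℕ), sol X d = sol Y d) (n : ℕ) :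
    sol X n = sol Y n := by
  rw [sol_gcd (e := 84) Exp84.pow n, sol_gcd (e := 84) Exp84.pow n]
  apply h
  have h1 : Nat.gcd n 84 ∈ Nat.divisors 84 :=
    Nat.mem_divisors.2 ⟨Nat.gcd_dvd_right n 84, by norm_num⟩
  have h2 : Nat.divisors 84 = {1, 2, 3, 4, 6, 7, 12, 14, 21, 28, 42, 84} := by decide +kernel
  rwa [h2] at h1

/-- counting with a split exponent (cheaper to evaluate). -/
theorem sol_eq_card3 (X : Type) [Group X] [Fintype X] [DecidableEq X] (a b c : ℕ) :
    sol X (a * b * c) = (Finset.univ.filter (fun x : X => ((x ^ a) ^ b) ^ c = 1)).card := by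
  rw [sol_eq_card]
  simp only [pow_mul]

end Cfsg.Agent.Lib.Helper47Thom
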