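import Cfsg.Agent.Lib.Helper47Thom

set_option autoImplicit false

namespace Cfsg.Agent.Lib.Helper47ThomB

open Cfsg.Agent.Lib.Helper47Thom

/-! Basic blocks for the order-type relation: small abelian groups with an automorphism. -/

abbrev z7a : MulAut (Multiplicative (ZMod 7)) := bZ 7 3 5 (by decide)
abbrev z7b : MulAut (Multiplicative (ZMod 7)) := bZ 7 2 4 (by decide)
abbrev z7c : MulAut (Multiplicative (ZMod 7)) := bZ 7 6 6 (by decide)
abbrev z3 : MulAut (Multiplicative (ZMod 3)) := bZ 3 2 2 (by decide)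
abbrev z4 : MulAut (Multiplicative (ZMod 4)) := bZ 4 3 3 (by decide)

def j2add : ZMod 2 × ZMod 2 ≃+ ZMod 2 × ZMod 2 where
  toFun v := (v.1 + v.2, v.2)
  invFun v := (v.1 + v.2, v.2)
  left_inv := by decide
  right_inv := by decide
  map_add' := by decide

def f4add : ZMod 2 × ZMod 2 ≃+ ZMod 2 × ZMod 2 where
  toFun v := (v.2, v.1 + v.2)
  invFun v := (v.1 + v.2, v.1)
  left_inv := by decide
  right_inv := by decide
  map_add' := by decide

def w4add : ZMod 4 × ZMod 4 ≃+ ZMod 4 × ZMod 4 where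
  toFun v := (3 * v.2, v.1 + 3 * v.2)
  invFun v := (3 * v.1 + v.2, 3 * v.1)
  left_inv := by decide
  right_inv := by decide
  map_add' := by decide

abbrev j2 : MulAut (Multiplicative (ZMod 2 × ZMod 2)) := AddEquiv.toMultiplicative j2add
abbrev f4 : MulAut (Multiplicative (ZMod 2 × ZMod 2)) := AddEquiv.toMultiplicative f4add
abbrev w4 : MulAut (Multiplicative (ZMod 4 × ZMod 4)) := AddEquiv.toMultiplicative w4add

theorem z7a_6 : z7a ^ 6 = 1 := by
  apply MulEquiv.ext; decide +kernel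

instance exp_z7a_6 : Exp84 (Cyc z7a 6 z7a_6) := ⟨by decide +kernel⟩

theorem z7a_12 : z7a ^ 12 = 1 := by
  apply MulEquiv.ext; decide +kernel

instance exp_z7a_12 : Exp84 (Cyc z7a 12 z7a_12) := ⟨by decide +kernel⟩

theorem z7b_3 : z7b ^ 3 = 1 := by
  apply MulEquiv.ext; decide +kernel

instance exp_z7b_3 : Exp84 (Cyc z7b 3 z7b_3) := ⟨by decide +kernel⟩

theorem z7b_6 : z7b ^ 6 = 1 := by
  apply MulEquiv.ext; decide +kernel

instance exp_z7b_6 : Exp84 (Cyc z7b 6 z7b_6) := ⟨by decide +kernel⟩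

theorem z7b_12 : z7b ^ 12 = 1 := by
  apply MulEquiv.ext; decide +kernel

instance exp_z7b_12 : Exp84 (Cyc z7b 12 z7b_12) := ⟨by decide +kernel⟩

theorem z7c_2 : z7c ^ 2 = 1 := by
  apply MulEquiv.ext; decide +kernel

instance exp_z7c_2 : Exp84 (Cyc z7c 2 z7c_2) := ⟨by decide +kernel⟩

theorem z7c_4 : z7c ^ 4 = 1 := by
  apply MulEquiv.ext; decide +kernel

instance exp_z7c_4 : Exp84 (Cyc z7c 4 z7c_4) := ⟨by decide +kernel⟩

theorem z7c_6 : z7c ^ 6 = 1 := by
  apply MulEquiv.ext; decide +kernel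

instance exp_z7c_6 : Exp84 (Cyc z7c 6 z7c_6) := ⟨by decide +kernel⟩

theorem z3_2 : z3 ^ 2 = 1 := by
  apply MulEquiv.ext; decide +kernel

instance exp_z3_2 : Exp84 (Cyc z3 2 z3_2) := ⟨by decide +kernel⟩

theorem z3_4 : z3 ^ 4 = 1 := by
  apply MulEquiv.ext; decide +kernel

instance exp_z3_4 : Exp84 (Cyc z3 4 z3_4) := ⟨by decide +kernel⟩

theorem z4_2 : z4 ^ 2 = 1 := by
  apply MulEquiv.ext; decide +kernel

instance exp_z4_2 : Exp84 (Cyc z4 2 z4_2) := ⟨by decide +kernel⟩

theorem z4_6 : z4 ^ 6 = 1 := by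
  apply MulEquiv.ext; decide +kernel

instance exp_z4_6 : Exp84 (Cyc z4 6 z4_6) := ⟨by decide +kernel⟩

theorem j2_2 : j2 ^ 2 = 1 := by
  apply MulEquiv.ext; decide +kernel

instance exp_j2_2 : Exp84 (Cyc j2 2 j2_2) := ⟨by decide +kernel⟩

theorem j2_6 : j2 ^ 6 = 1 := by
  apply MulEquiv.ext; decide +kernel

instance exp_j2_6 : Exp84 (Cyc j2 6 j2_6) := ⟨by decide +kernel⟩

theorem f4_3 : f4 ^ 3 = 1 := by
  apply MulEquiv.ext; decide +kernel

instance exp_f4_3 : Exp84 (Cyc f4 3 f4_3) := ⟨by decide +kernel⟩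

theorem w4_3 : w4 ^ 3 = 1 := by
  apply MulEquiv.ext; decide +kernel

instance exp_w4_3 : Exp84 (Cyc w4 3 w4_3) := ⟨by decide +kernel⟩

instance exp_c2 : Exp84 (Multiplicative (ZMod 2)) := ⟨by decide +kernel⟩

instance exp_c3 : Exp84 (Multiplicative (ZMod 3)) := ⟨by decide +kernel⟩

instance exp_c4 : Exp84 (Multiplicative (ZMod 4)) := ⟨by decide +kernel⟩

instance exp_c7 : Exp84 (Multiplicative (ZMod 7)) := ⟨by decide +kernel⟩

/-! ### the group `AΓL(1,8)` of order 168 -/

abbrev V8 := ZMod 2 × ZMod 2 × ZMod 2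

def f8add : V8 ≃+ V8 where
  toFun v := (v.2.2, v.1 + v.2.2, v.2.1)
  invFun v := (v.1 + v.2.1, v.2.2, v.1)
  left_inv := by decide
  right_inv := by decide
  map_add' := by decide

def f8 : MulAut (Multiplicative V8) := AddEquiv.toMultiplicative f8add

theorem f8_7 : f8 ^ 7 = 1 := by
  apply MulEquiv.ext; decide +kernel

abbrev N56 := Cyc f8 7 f8_7

def frob : MulAut N56 where
  toFun x := ⟨Multiplicative.ofAdd ((Multiplicative.toAdd x.left).1,
      (Multiplicative.toAdd x.left).2.2,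
      (Multiplicative.toAdd x.left).2.1 + (Multiplicative.toAdd x.left).2.2), x.right ^ 2⟩
  invFun x := ⟨Multiplicative.ofAdd ((Multiplicative.toAdd x.left).1,
      (Multiplicative.toAdd x.left).2.1 + (Multiplicative.toAdd x.left).2.2,
      (Multiplicative.toAdd x.left).2.1), x.right ^ 4⟩
  left_inv := by decide +kernel
  right_inv := by decide +kernel
  map_mul' := by decide +kernel

theorem frob_3 : frob ^ 3 = 1 := by
  apply MulEquiv.ext; decide +kernel

abbrev AG8 := Cyc frob 3 frob_3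

set_option maxRecDepth 100000 in
theorem ag8_1 : sol AG8 1 = 1 :=
  (sol_eq_card3 AG8 1 1 1).trans (by decide +kernel)

set_option maxRecDepth 100000 in
theorem ag8_2 : sol AG8 2 = 8 :=
  (sol_eq_card3 AG8 2 1 1).trans (by decide +kernel)

set_option maxRecDepth 100000 in
theorem ag8_3 : sol AG8 3 = 57 :=
  (sol_eq_card3 AG8 1 3 1).trans (by decide +kernel)

set_option maxRecDepth 100000 in
theorem ag8_4 : sol AG8 4 = 8 :=
  (sol_eq_card3 AG8 4 1 1).trans (by decide +kernel)

set_option maxRecDepth 100000 in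
theorem ag8_6 : sol AG8 6 = 120 :=
  (sol_eq_card3 AG8 2 3 1).trans (by decide +kernel)

set_option maxRecDepth 100000 in
theorem ag8_7 : sol AG8 7 = 49 :=
  (sol_eq_card3 AG8 1 1 7).trans (by decide +kernel)

set_option maxRecDepth 100000 in
theorem ag8_12 : sol AG8 12 = 120 :=
  (sol_eq_card3 AG8 4 3 1).trans (by decide +kernel)

set_option maxRecDepth 100000 in
theorem ag8_14 : sol AG8 14 = 56 :=
  (sol_eq_card3 AG8 2 1 7).trans (by decide +kernel)

set_option maxRecDepth 100000 in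
theorem ag8_21 : sol AG8 21 = 105 :=
  (sol_eq_card3 AG8 1 3 7).trans (by decide +kernel)

set_option maxRecDepth 100000 in
theorem ag8_28 : sol AG8 28 = 56 :=
  (sol_eq_card3 AG8 4 1 7).trans (by decide +kernel)

set_option maxRecDepth 100000 in
theorem ag8_42 : sol AG8 42 = 168 :=
  (sol_eq_card3 AG8 2 3 7).trans (by decide +kernel)

set_option maxRecDepth 100000 in
theorem ag8_84 : sol AG8 84 = 168 :=
  (sol_eq_card3 AG8 4 3 7).trans (by decide +kernel)

theorem pow84_of_sol {X : Type} [Group X] [Finite X] (h : sol X 84 = Nat.card X) : Exp84 X := by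
  refine ⟨fun x => ?_⟩
  by_contra hx
  have h1 : Nat.card {x : X // x ^ 84 = 1} < Nat.card X := by
    have := Fintype.ofFinite X
    classical
    rw [Nat.card_eq_fintype_card, Nat.card_eq_fintype_card]
    exact Fintype.card_subtype_lt hx
  unfold sol at h
  omega

instance exp_ag8 : Exp84 AG8 := pow84_of_sol (by
  rw [ag8_84, Nat.card_eq_fintype_card]; decide +kernel)

end Cfsg.Agent.Lib.Helper47ThomB
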