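import Cfsg.Agent.Lib.Helper47ThomB
import Cfsg.Agent.Lib.Helper6SL

set_option autoImplicit false

namespace Cfsg.Agent.Lib.Helper47ThomC

open Cfsg.Agent.Lib.Helper47Thom Cfsg.Agent.Lib.Helper47ThomB

abbrev L27 := Matrix.SpecialLinearGroup (Fin 3) (ZMod 2)

set_option maxRecDepth 100000 in
theorem l27_1 : sol L27 1 = 1 :=
  (sol_eq_card3 L27 1 1 1).trans (by decide +kernel)

set_option maxRecDepth 100000 in
theorem l27_2 : sol L27 2 = 22 :=
  (sol_eq_card3 L27 2 1 1).trans (by decide +kernel)

set_option maxRecDepth 100000 in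
theorem l27_3 : sol L27 3 = 57 :=
  (sol_eq_card3 L27 1 3 1).trans (by decide +kernel)

set_option maxRecDepth 100000 in
theorem l27_4 : sol L27 4 = 64 :=
  (sol_eq_card3 L27 4 1 1).trans (by decide +kernel)

set_option maxRecDepth 100000 in
theorem l27_6 : sol L27 6 = 78 :=
  (sol_eq_card3 L27 2 3 1).trans (by decide +kernel)

set_option maxRecDepth 100000 in
theorem l27_7 : sol L27 7 = 49 :=
  (sol_eq_card3 L27 1 1 7).trans (by decide +kernel)

set_option maxRecDepth 100000 in
theorem l27_12 : sol L27 12 = 120 :=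
  (sol_eq_card3 L27 4 3 1).trans (by decide +kernel)

set_option maxRecDepth 100000 in
theorem l27_14 : sol L27 14 = 70 :=
  (sol_eq_card3 L27 2 1 7).trans (by decide +kernel)

set_option maxRecDepth 100000 in
theorem l27_21 : sol L27 21 = 105 :=
  (sol_eq_card3 L27 1 3 7).trans (by decide +kernel)

set_option maxRecDepth 100000 in
theorem l27_28 : sol L27 28 = 112 :=
  (sol_eq_card3 L27 4 1 7).trans (by decide +kernel)

set_option maxRecDepth 100000 in
theorem l27_42 : sol L27 42 = 126 :=
  (sol_eq_card3 L27 2 3 7).trans (by decide +kernel)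

set_option maxRecDepth 100000 in
theorem l27_84 : sol L27 84 = 168 :=
  (sol_eq_card3 L27 4 3 7).trans (by decide +kernel)

instance exp_l27 : Exp84 L27 := pow84_of_sol (by
  rw [l27_84, Nat.card_eq_fintype_card]; decide +kernel)

theorem l27_not_solvable : ¬ Group.IsSolvable L27 := by
  intro h
  have h1 : Nontrivial L27 := by
    rw [← Fintype.one_lt_card_iff_nontrivial]; decide +kernel
  have h2 := Group.IsSolvable.commutator_lt_top_of_nontrivial L27
  rw [Cfsg.Agent.Lib.Helper6SL.commutator_SL_eq_top (by simp)] at h2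
  exact lt_irrefl _ h2

end Cfsg.Agent.Lib.Helper47ThomC
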