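import Mathlib

/-! Elementary abelian 2-groups of linear maps: a bound for the order by splitting into
eigenspaces. -/

set_option autoImplicit false

namespace Cfsg.Agent.Lib.Helper48ElemTwo

open Module

variable {F V Γ : Type*} [Field F] [AddCommGroup V] [Module F V] [Group Γ]

/-- pointwise stabiliser of a subspace -/
def KK (ρ : Γ →* Module.End F V) (U : Submodule F V) : Subgroup Γ where
  carrier := {a | ∀ u ∈ U, ρ a u = u}
  one_mem' := by intro u _; simp
  mul_mem' := by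
    intro a b ha hb u hu
    rw [map_mul, Module.End.mul_apply, hb u hu, ha u hu]
  inv_mem' := by
    intro a ha u hu
    have h1 : ρ a⁻¹ (ρ a u) = u := by
      rw [← Module.End.mul_apply, ← map_mul, inv_mul_cancel, map_one, Module.End.one_apply]
    rw [ha u hu] at h1
    exact h1

theorem mem_KK (ρ : Γ →* Module.End F V) (U : Submodule F V) (a : Γ) :
    a ∈ KK ρ U ↔ ∀ u ∈ U, ρ a u = u := Iff.rfl

/-- the `+1` part -/
def Up (ρ : Γ →* Module.End F V) (U : Submodule F V) (a : Γ) : Submodule F V :=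
  U ⊓ LinearMap.ker (ρ a - 1)

/-- the `-1` part -/
def Um (ρ : Γ →* Module.End F V) (U : Submodule F V) (a : Γ) : Submodule F V :=
  U ⊓ LinearMap.ker (ρ a + 1)

theorem mem_Up (ρ : Γ →* Module.End F V) (U : Submodule F V) (a : Γ) (u : V) :
    u ∈ Up ρ U a ↔ u ∈ U ∧ ρ a u = u := by
  unfold Up
  rw [Submodule.mem_inf, LinearMap.mem_ker, LinearMap.sub_apply, Module.End.one_apply, sub_eq_zero]

theorem mem_Um (ρ : Γ →* Module.End F V) (U : Submodule F V) (a : Γ) (u : V) :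
    u ∈ Um ρ U a ↔ u ∈ U ∧ ρ a u = -u := by
  unfold Um
  rw [Submodule.mem_inf, LinearMap.mem_ker, LinearMap.add_apply, Module.End.one_apply,
    add_eq_zero_iff_eq_neg]

section

variable (ρ : Γ →* Module.End F V) (hcomm : ∀ a b : Γ, a * b = b * a) (hsq : ∀ a : Γ, a * a = 1)

include hsq in
theorem rho_rho (a : Γ) (u : V) : ρ a (ρ a u) = u := by
  rw [← Module.End.mul_apply, ← map_mul, hsq, map_one, Module.End.one_apply]

include hcomm in
theorem rho_comm (a b : Γ) (u : V) : ρ a (ρ b u) = ρ b (ρ a u) := by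
  rw [← Module.End.mul_apply, ← map_mul, hcomm, map_mul, Module.End.mul_apply]

include hcomm in
theorem Up_inv (U : Submodule F V) (hU : ∀ b u, u ∈ U → ρ b u ∈ U) (a : Γ) :
    ∀ b u, u ∈ Up ρ U a → ρ b u ∈ Up ρ U a := by
  intro b u hu
  rw [mem_Up] at hu ⊢
  refine ⟨hU b u hu.1, ?_⟩
  rw [rho_comm ρ hcomm, hu.2]

include hcomm in
theorem Um_inv (U : Submodule F V) (hU : ∀ b u, u ∈ U → ρ b u ∈ U) (a : Γ) :
    ∀ b u, u ∈ Um ρ U a → ρ b u ∈ Um ρ U a := by
  intro b u hu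
  rw [mem_Um] at hu ⊢
  refine ⟨hU b u hu.1, ?_⟩
  rw [rho_comm ρ hcomm, hu.2, map_neg]

include hsq in
theorem sup_eq (h2 : (2 : F) ≠ 0) (U : Submodule F V) (hU : ∀ b u, u ∈ U → ρ b u ∈ U) (a : Γ) :
    Up ρ U a ⊔ Um ρ U a = U := by
  apply le_antisymm
  · exact sup_le inf_le_left inf_le_left
  · intro u hu
    rw [Submodule.mem_sup]
    refine ⟨(2 : F)⁻¹ • (u + ρ a u), ?_, (2 : F)⁻¹ • (u - ρ a u), ?_, ?_⟩
    · rw [mem_Up]
      refine ⟨U.smul_mem _ (U.add_mem hu (hU a u hu)), ?_⟩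
      rw [map_smul, map_add, rho_rho ρ hsq, add_comm]
    · rw [mem_Um]
      refine ⟨U.smul_mem _ (U.sub_mem hu (hU a u hu)), ?_⟩
      rw [map_smul, map_sub, rho_rho ρ hsq, ← smul_neg, neg_sub]
    · rw [← smul_add]
      have : u + ρ a u + (u - ρ a u) = (2 : F) • u := by rw [two_smul]; abel
      rw [this, smul_smul, inv_mul_cancel₀ h2, one_smul]

theorem inf_eq (h2 : (2 : F) ≠ 0) (U : Submodule F V) (a : Γ) :
    Up ρ U a ⊓ Um ρ U a = ⊥ := by
  rw [eq_bot_iff]
  intro u hu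
  rw [Submodule.mem_inf, mem_Up, mem_Um] at hu
  have h : (2 : F) • u = 0 := by
    rw [two_smul]
    have := hu.1.2.symm.trans hu.2.2
    nth_rewrite 1 [this]
    simp
  rcases smul_eq_zero.1 h with h | h
  · exact absurd h h2
  · exact h

include hsq in
theorem KK_le (h2 : (2 : F) ≠ 0) (U : Submodule F V) (hU : ∀ b u, u ∈ U → ρ b u ∈ U) (a : Γ) :
    KK ρ (Up ρ U a) ⊓ KK ρ (Um ρ U a) ≤ KK ρ U := by
  intro b hb u hu
  rw [← sup_eq ρ hsq h2 U hU a, Submodule.mem_sup] at hu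
  obtain ⟨y, hy, z, hz, rfl⟩ := hu
  rw [map_add, hb.1 y hy, hb.2 z hz]

theorem index_le_two (U : Submodule F V)
    (h : ∀ a : Γ, (∀ u ∈ U, ρ a u = u) ∨ (∀ u ∈ U, ρ a u = -u)) :
    (KK ρ U).index ≤ 2 ∧ (KK ρ U).index ≠ 0 := by
  by_cases htop : KK ρ U = ⊤
  · rw [htop, Subgroup.index_top]; omega
  · obtain ⟨a0, ha0⟩ : ∃ a0, a0 ∉ KK ρ U := by
      by_contra hc
      push Not at hc
      exact htop (eq_top_iff.2 fun x _ => hc x)
    have hneg : ∀ b, b ∉ KK ρ U → ∀ u ∈ U, ρ b u = -u := by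
      intro b hb
      rcases h b with h' | h'
      · exact absurd h' hb
      · exact h'
    have : (KK ρ U).index = 2 := by
      rw [Subgroup.index_eq_two_iff]
      refine ⟨a0, fun b => ?_⟩
      by_cases hb : b ∈ KK ρ U
      · refine Or.inr ⟨hb, fun h' => ha0 ?_⟩
        have := (KK ρ U).mul_mem ((KK ρ U).inv_mem hb) h'
        simpa using this
      · refine Or.inl ⟨?_, hb⟩
        intro u hu
        rw [map_mul, Module.End.mul_apply, hneg a0 ha0 u hu, map_neg, hneg b hb u hu, neg_neg]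
    rw [this]; omega

include hcomm hsq in
theorem index_bound [FiniteDimensional F V] (h2 : (2 : F) ≠ 0) (Good : Submodule F V → Prop) (c : ℕ)
    (hGood : ∀ U, Good U → U ≠ ⊥ → c ≤ finrank F U)
    (hsplit : ∀ U a, Good U → (∀ b u, u ∈ U → ρ b u ∈ U) →
      Good (Up ρ U a) ∧ Good (Um ρ U a)) :
    ∀ (N : ℕ) (U : Submodule F V), finrank F U = N → Good U → (∀ b u, u ∈ U → ρ b u ∈ U) →
      (KK ρ U).index ^ c ≤ 2 ^ N ∧ (KK ρ U).index ≠ 0 := by
  intro N
  induction N using Nat.strong_induction_on with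
  | _ N ih =>
    intro U hN hG hU
    by_cases hA : ∀ a : Γ, (∀ u ∈ U, ρ a u = u) ∨ (∀ u ∈ U, ρ a u = -u)
    · obtain ⟨h1, h3⟩ := index_le_two ρ U hA
      refine ⟨?_, h3⟩
      by_cases hbot : U = ⊥
      · have : KK ρ U = ⊤ := by
          rw [eq_top_iff]
          intro a _ u hu
          rw [hbot, Submodule.mem_bot] at hu
          rw [hu, map_zero]
        rw [this, Subgroup.index_top, one_pow]
        exact Nat.one_le_two_pow
      · calc (KK ρ U).index ^ c ≤ 2 ^ c := Nat.pow_le_pow_left h1 c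
          _ ≤ 2 ^ N := Nat.pow_le_pow_right (by norm_num) (hN ▸ hGood U hG hbot)
    · push Not at hA
      obtain ⟨a, ⟨u1, hu1, hu1'⟩, ⟨u2, hu2, hu2'⟩⟩ := hA
      have hlt1 : Up ρ U a < U := by
        refine lt_of_le_of_ne inf_le_left fun h => hu1' ?_
        have : u1 ∈ Up ρ U a := by rw [h]; exact hu1
        exact ((mem_Up ρ U a u1).1 this).2
      have hlt2 : Um ρ U a < U := by
        refine lt_of_le_of_ne inf_le_left fun h => hu2' ?_
        have : u2 ∈ Um ρ U a := by rw [h]; exact hu2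
        exact ((mem_Um ρ U a u2).1 this).2
      have hf1 := Submodule.finrank_lt_finrank_of_lt hlt1
      have hf2 := Submodule.finrank_lt_finrank_of_lt hlt2
      have hadd := Submodule.finrank_sup_add_finrank_inf_eq (Up ρ U a) (Um ρ U a)
      rw [sup_eq ρ hsq h2 U hU a, inf_eq ρ h2 U a, finrank_bot, add_zero] at hadd
      obtain ⟨hG1, hG2⟩ := hsplit U a hG hU
      obtain ⟨i1, i1'⟩ := ih _ (hN ▸ hf1) (Up ρ U a) rfl hG1 (Up_inv ρ hcomm U hU a)
      obtain ⟨i2, i2'⟩ := ih _ (hN ▸ hf2) (Um ρ U a) rfl hG2 (Um_inv ρ hcomm U hU a)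
      have hne : (KK ρ (Up ρ U a) ⊓ KK ρ (Um ρ U a)).index ≠ 0 := Subgroup.index_inf_ne_zero i1' i2'
      have hdvd := Subgroup.index_dvd_of_le (KK_le ρ hsq h2 U hU a)
      have hne' : (KK ρ U).index ≠ 0 := fun h => hne (by rw [h] at hdvd; exact Nat.eq_zero_of_zero_dvd hdvd)
      refine ⟨?_, hne'⟩
      have hle : (KK ρ U).index ≤ (KK ρ (Up ρ U a)).index * (KK ρ (Um ρ U a)).index :=
        (Nat.le_of_dvd (Nat.pos_of_ne_zero hne) hdvd).trans Subgroup.index_inf_le
      calc (KK ρ U).index ^ c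
          ≤ ((KK ρ (Up ρ U a)).index * (KK ρ (Um ρ U a)).index) ^ c := Nat.pow_le_pow_left hle c
        _ = (KK ρ (Up ρ U a)).index ^ c * (KK ρ (Um ρ U a)).index ^ c := mul_pow _ _ _
        _ ≤ 2 ^ finrank F (Up ρ U a) * 2 ^ finrank F (Um ρ U a) := Nat.mul_le_mul i1 i2
        _ = 2 ^ N := by rw [← pow_add, ← hadd, hN]

include hcomm hsq in
/-- the final bound for a faithful action -/
theorem card_bound [FiniteDimensional F V] (h2 : (2 : F) ≠ 0) (Good : Submodule F V → Prop) (c : ℕ)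
    (hGood : ∀ U, Good U → U ≠ ⊥ → c ≤ finrank F U)
    (hsplit : ∀ U a, Good U → (∀ b u, u ∈ U → ρ b u ∈ U) →
      Good (Up ρ U a) ∧ Good (Um ρ U a))
    (htop : Good ⊤) (hinj : Function.Injective ρ) :
    Nat.card Γ ^ c ≤ 2 ^ finrank F V := by
  have h := (index_bound ρ hcomm hsq h2 Good c hGood hsplit _ ⊤ (finrank_top F V) htop
    (fun _ _ _ => Submodule.mem_top)).1
  have hK : KK ρ (⊤ : Submodule F V) = ⊥ := by
    rw [eq_bot_iff]
    intro a ha
    rw [Subgroup.mem_bot]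
    apply hinj
    rw [map_one]
    ext u
    exact ha u Submodule.mem_top
  rwa [hK, Subgroup.index_bot] at h

end

end Cfsg.Agent.Lib.Helper48ElemTwo
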