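import Mathlib
import Cfsg.Prelude.Def_ClassicalGeometry

set_option autoImplicit false

namespace Cfsg.Agent.Lib.Helper48Symp

open Matrix Module

variable {F : Type*} [Field F] {m : ℕ}

abbrev SV (m : ℕ) (F : Type*) := Fin m ⊕ Fin m → F

theorem symp_invariant (u : Matrix.symplecticGroup (Fin m) F) (x y : SV m F) :
    Cfsg.sympForm m F ((u : Matrix (Fin m ⊕ Fin m) (Fin m ⊕ Fin m) F).mulVec x)
      ((u : Matrix (Fin m ⊕ Fin m) (Fin m ⊕ Fin m) F).mulVec y) = Cfsg.sympForm m F x y := by
  have h := SymplecticGroup.mem_iff'.mp u.2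
  unfold Cfsg.sympForm
  rw [Matrix.mulVec_mulVec, Matrix.dotProduct_mulVec, Matrix.vecMul_mulVec, ← Matrix.dotProduct_mulVec,
    ← Matrix.mul_assoc, h]

theorem sympForm_eq (u v : SV m F) :
    Cfsg.sympForm m F u v = ∑ i, (u (.inr i) * v (.inl i) - u (.inl i) * v (.inr i)) := by
  unfold Cfsg.sympForm Matrix.J
  rw [Matrix.fromBlocks_mulVec, dotProduct, Fintype.sum_sum_type, Finset.sum_sub_distrib]
  simp [Matrix.neg_mulVec]
  ring

/-- the symplectic form as a bilinear form -/
noncomputable def sympB (m : ℕ) (F : Type*) [Field F] : LinearMap.BilinForm F (SV m F) :=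
  Matrix.toBilin' (Matrix.J (Fin m) F)

theorem sympB_apply (u v : SV m F) : sympB m F u v = Cfsg.sympForm m F u v :=
  Matrix.toBilin'_apply' _ _ _

theorem sympB_nondeg : (sympB m F).Nondegenerate := by
  unfold sympB
  apply Matrix.Nondegenerate.toBilin'
  apply Matrix.nondegenerate_of_det_ne_zero
  exact (Matrix.isUnit_det_J (Fin m) F).ne_zero

theorem sympForm_swap (u v : SV m F) : Cfsg.sympForm m F u v = - Cfsg.sympForm m F v u := by
  rw [sympForm_eq, sympForm_eq, ← Finset.sum_neg_distrib]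
  apply Finset.sum_congr rfl
  intro i _
  ring

theorem finrank_SV : finrank F (SV m F) = 2 * m := by
  simp [two_mul]

end Cfsg.Agent.Lib.Helper48Symp
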