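import Mathlib

set_option autoImplicit false

namespace Cfsg.Agent.Lib.Helper50Ex32

open Subgroup
open scoped commutatorElement

variable {H : Type*} [Group H]

theorem quot_comm (hcomm : ∀ a b : H, ⁅a, b⁆ ∈ center H) (x y : H ⧸ center H) :
    x * y = y * x := by
  induction x using QuotientGroup.induction_on with
  | H a =>
    induction y using QuotientGroup.induction_on with
    | H b =>
      rw [← QuotientGroup.mk_mul, ← QuotientGroup.mk_mul, QuotientGroup.eq]
      have := hcomm b⁻¹ a⁻¹
      rw [commutatorElement_def] at this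
      simpa [mul_assoc] using this

/-- the commutator map with `τ`, modulo the centre -/
noncomputable def F (hcomm : ∀ a b : H, ⁅a, b⁆ ∈ center H) (τ : MulAut H) : H →* H ⧸ center H :=
  MonoidHom.mk' (fun u => ((u⁻¹ * τ u : H) : H ⧸ center H)) (by
    intro u v
    simp only [map_mul, mul_inv_rev, QuotientGroup.mk_mul]
    have h1 := quot_comm hcomm ((v⁻¹ : H) : H ⧸ center H) (((u⁻¹ : H) : H ⧸ center H) * ((τ u : H) : H ⧸ center H))
    calc ((v⁻¹ : H) : H ⧸ center H) * ((u⁻¹ : H) : H ⧸ center H) * (((τ u : H) : H ⧸ center H) * ((τ v : H) : H ⧸ center H))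
        = (((v⁻¹ : H) : H ⧸ center H) * (((u⁻¹ : H) : H ⧸ center H) * ((τ u : H) : H ⧸ center H))) * ((τ v : H) : H ⧸ center H) := by
          simp only [mul_assoc]
      _ = _ := by rw [h1]; simp only [mul_assoc])

theorem F_apply (hcomm : ∀ a b : H, ⁅a, b⁆ ∈ center H) (τ : MulAut H) (u : H) :
    F hcomm τ u = ((u⁻¹ * τ u : H) : H ⧸ center H) := rfl

theorem mem_ker_F (hcomm : ∀ a b : H, ⁅a, b⁆ ∈ center H) (τ : MulAut H) (u : H) :
    u ∈ (F hcomm τ).ker ↔ u⁻¹ * τ u ∈ center H := by
  rw [MonoidHom.mem_ker, F_apply, QuotientGroup.eq_one_iff]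

theorem aut_center (σ : MulAut H) (z : H) : σ z ∈ center H ↔ z ∈ center H := by
  constructor
  · intro h
    rw [mem_center_iff] at h ⊢
    intro g
    apply σ.injective
    rw [map_mul, map_mul]
    exact h (σ g)
  · intro h
    rw [mem_center_iff] at h ⊢
    intro g
    obtain ⟨k, rfl⟩ := σ.surjective g
    rw [← map_mul, ← map_mul, h k]

theorem card_ker_conj [Finite H] (hcomm : ∀ a b : H, ⁅a, b⁆ ∈ center H) (τ σ : MulAut H) :
    Nat.card (F hcomm (σ * τ * σ⁻¹)).ker = Nat.card (F hcomm τ).ker := by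
  have : (F hcomm (σ * τ * σ⁻¹)).ker = (F hcomm τ).ker.map σ.toMonoidHom := by
    ext h
    rw [mem_ker_F, Subgroup.mem_map]
    constructor
    · intro hh
      refine ⟨σ⁻¹ h, ?_, by simp⟩
      rw [mem_ker_F, ← aut_center σ]
      simpa using hh
    · rintro ⟨k, hk, rfl⟩
      rw [mem_ker_F, ← aut_center σ] at hk
      simpa using hk
  rw [this]
  exact Subgroup.card_map_of_injective σ.injective

theorem fix_center [Finite H] (hc2 : Nat.card (center H) = 2) (τ : MulAut H) (z : H)
    (hz : z ∈ center H) : τ z = z := by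
  by_cases h1 : z = 1
  · simp [h1]
  · -- the centre has exactly two elements
    have hτz : τ z ∈ center H := (aut_center τ z).2 hz
    have hne : τ z ≠ 1 := by
      intro h; apply h1; apply τ.injective; simpa using h
    obtain ⟨y, _, hy⟩ := (Nat.card_eq_two_iff' (1 : center H)).1 hc2
    have e1 : (⟨z, hz⟩ : center H) = y := hy _ (by simpa [Subtype.ext_iff] using h1)
    have e2 : (⟨τ z, hτz⟩ : center H) = y := hy _ (by simpa [Subtype.ext_iff] using hne)
    have := e2.trans e1.symm
    simpa [Subtype.ext_iff] using this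

theorem sq_eq_one_of_fixed [Finite H] (hc2 : Nat.card (center H) = 2) (h32 : Nat.card H = 32)
    (hcomm : ∀ a b : H, ⁅a, b⁆ ∈ center H) (hsq : ∀ a : H, a ^ 2 ∈ center H)
    (τ τ' : MulAut H) (hτ : ∀ h, τ (τ h) = h)
    (hcard : Nat.card (F hcomm τ').ker = Nat.card (F hcomm τ).ker)
    (hy : ∀ h : H, h⁻¹ * τ (τ' h) ∈ center H → h ∈ center H)
    (h : H) (hh : τ h = h) : h ^ 2 = 1 := by
  set S := (F hcomm τ).ker with hS
  set S' := (F hcomm τ').ker with hS'
  have hinf : S ⊓ S' ≤ center H := by
    intro k hk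
    obtain ⟨hk1, hk2⟩ := Subgroup.mem_inf.1 hk
    rw [hS, mem_ker_F] at hk1
    rw [hS', mem_ker_F] at hk2
    apply hy
    have e : k⁻¹ * τ (τ' k) = (k⁻¹ * τ k) * τ (k⁻¹ * τ' k) := by
      simp [mul_assoc]
    rw [e]
    exact mul_mem hk1 ((aut_center τ _).2 hk2)
  have hZi : (center H).index = 16 := by
    have := (center H).card_mul_index
    rw [hc2, h32] at this; omega
  have hSi := S.card_mul_index
  have hSi' := S'.card_mul_index
  rw [h32] at hSi hSi'
  have hii : S'.index = S.index := by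
    rw [hcard] at hSi'
    have hpos : 0 < Nat.card S := Nat.card_pos
    exact Nat.eq_of_mul_eq_mul_left hpos (hSi'.trans hSi.symm)
  have h16 : 16 ≤ S.index * S.index := by
    have h1 : (center H).index ∣ (S ⊓ S').index := Subgroup.index_dvd_of_le hinf
    have h2 : (S ⊓ S').index ≤ S.index * S'.index := Subgroup.index_inf_le
    have h3 : (S ⊓ S').index ≠ 0 := Subgroup.index_ne_zero_of_finite
    have h4 := Nat.le_of_dvd (Nat.pos_of_ne_zero h3) h1
    rw [hZi] at h4; rw [hii] at h2; omega
  -- the comap of the range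
  set R := (F hcomm τ).range.comap (QuotientGroup.mk' (center H)) with hR
  have hRS : R ≤ S := by
    intro k hk
    rw [hR, Subgroup.mem_comap, MonoidHom.mem_range] at hk
    obtain ⟨u, hu⟩ := hk
    rw [F_apply, QuotientGroup.mk'_apply, QuotientGroup.eq] at hu
    -- k = f u * z
    set f := u⁻¹ * τ u with hf
    have hτf : τ f = f⁻¹ := by
      rw [hf]; simp [hτ]
    set z := f⁻¹ * k with hz
    have hk' : k = f * z := by rw [hz]; group
    rw [hS, mem_ker_F, hk']
    have hτz : τ z = z := fix_center hc2 τ z hu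
    have e : (f * z)⁻¹ * τ (f * z) = (f⁻¹) ^ 2 := by
      rw [map_mul, hτf, hτz]
      have hzc := (mem_center_iff.1 hu)
      calc (f * z)⁻¹ * (f⁻¹ * z) = z⁻¹ * (f⁻¹ * f⁻¹) * z := by group
        _ = z⁻¹ * (z * (f⁻¹ * f⁻¹)) := by rw [mul_assoc, hzc (f⁻¹ * f⁻¹)]
        _ = (f⁻¹) ^ 2 := by group
    rw [e]
    exact hsq _
  have hRi : R.index * S.index = 16 := by
    have h1 : R.index = (F hcomm τ).range.index :=
      Subgroup.index_comap_of_surjective _ (QuotientGroup.mk'_surjective _)
    have h2 : S.index = Nat.card (F hcomm τ).range := Subgroup.index_ker _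
    have h3 := (F hcomm τ).range.card_mul_index
    have h4 : Nat.card (H ⧸ center H) = 16 := by
      rw [← hZi]; rfl
    rw [h1, h2, mul_comm, h3, h4]
  have hrel := Subgroup.relIndex_mul_index hRS
  have hRS' : S ≤ R := by
    rw [← Subgroup.relIndex_eq_one]
    have hSpos : 0 < S.index := Nat.pos_of_ne_zero Subgroup.index_ne_zero_of_finite
    -- R.index = relIndex * S.index, R.index * S.index = 16, S.index^2 ≥ 16
    have h5 : R.relIndex S * (S.index * S.index) = 16 := by
      rw [← mul_assoc, hrel, hRi]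
    have h6 : R.relIndex S ≠ 0 := by
      intro h0; rw [h0] at h5; omega
    by_contra hne
    have h7 : 2 ≤ R.relIndex S := by omega
    nlinarith
  -- now h ∈ S
  have hhS : h ∈ S := by
    rw [hS, mem_ker_F, hh]; simp
  have hhR := hRS' hhS
  rw [hR, Subgroup.mem_comap, MonoidHom.mem_range] at hhR
  obtain ⟨u, hu⟩ := hhR
  rw [F_apply, QuotientGroup.mk'_apply, QuotientGroup.eq] at hu
  set f := u⁻¹ * τ u with hf
  have hτf : τ f = f⁻¹ := by
    rw [hf]; simp [hτ]
  set z := f⁻¹ * h with hz
  have hk' : h = f * z := by rw [hz]; group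
  have hτz : τ z = z := fix_center hc2 τ z hu
  have hff : f⁻¹ = f := by
    have : τ (f * z) = f * z := by rw [← hk']; exact hh
    rw [map_mul, hτf, hτz] at this
    exact mul_right_cancel this
  have hz2 : z ^ 2 = 1 := by
    have : (⟨z, hu⟩ : center H) ^ 2 = 1 := by
      rw [← hc2]; exact pow_card_eq_one'
    simpa [Subtype.ext_iff] using this
  have hzc := (mem_center_iff.1 hu)
  calc h ^ 2 = (f * z) * (f * z) := by rw [hk', pow_two]
    _ = f * (z * f) * z := by group
    _ = f * (f * z) * z := by rw [hzc f]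
    _ = (f * f) * z ^ 2 := by rw [pow_two]; simp only [mul_assoc]
    _ = 1 := by
      rw [hz2, mul_one]
      nth_rewrite 1 [← hff]
      simp

end Cfsg.Agent.Lib.Helper50Ex32
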