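import Cfsg.Agent.Lib.Helper50Ex32

set_option autoImplicit false

namespace Cfsg.Agent.Lib.Helper50Ex32G

open Subgroup Cfsg.Agent.Lib.Helper50Ex32
open scoped commutatorElement

variable {G : Type*} [Group G] [Finite G]

/-- an element of order 5 cannot centralize `H`. -/
theorem no_cent (H : Subgroup G) (hG : Nat.card G = 320) (h32 : Nat.card H = 32)
    (hfit : ∀ N : Subgroup G, N.Normal → Group.IsNilpotent N → N ≤ H)
    (y : G) (hy : orderOf y = 5) (hc : ∀ h ∈ H, h * y = y * h) : False := by
  haveI : Fact (Nat.Prime 5) := ⟨by norm_num⟩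
  have hP0 : Nat.card (zpowers y) = 5 := by rw [Nat.card_zpowers, hy]
  have hp0 : IsPGroup 5 (zpowers y) := IsPGroup.of_card (n := 1) (by rw [hP0]; norm_num)
  obtain ⟨P, hP⟩ := hp0.exists_le_sylow
  obtain ⟨n, hn⟩ := IsPGroup.iff_card.mp P.isPGroup'
  have hdvd : Nat.card (P : Subgroup G) ∣ 320 := by rw [← hG]; exact Subgroup.card_subgroup_dvd_card _
  have hle : 5 ≤ Nat.card (P : Subgroup G) := le_of_eq_of_le hP0.symm (Subgroup.card_le_of_le hP)
  have hn1 : n = 1 := by
    rcases n with _ | _ | n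
    · rw [hn] at hle; norm_num at hle
    · rfl
    · exfalso
      rw [hn] at hdvd
      have : 25 ∣ 320 := Dvd.dvd.trans ⟨5 ^ n, by ring⟩ hdvd
      norm_num at this
  have hPc : Nat.card (P : Subgroup G) = 5 := by rw [hn, hn1]; norm_num
  have hPeq : zpowers y = (P : Subgroup G) :=
    Subgroup.eq_of_le_of_card_ge hP (by rw [hPc, hP0])
  have hHN : H ≤ Subgroup.normalizer ((P : Subgroup G) : Set G) := by
    refine le_trans ?_ (Subgroup.centralizer_le_normalizer _)
    intro h hh
    rw [← hPeq, Subgroup.mem_centralizer_iff]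
    intro k hk
    obtain ⟨i, rfl⟩ := Subgroup.mem_zpowers_iff.1 hk
    exact ((Commute.zpow_right (hc h hh : Commute h y) i).eq).symm
  have h1 : 32 ∣ Nat.card (Subgroup.normalizer ((P : Subgroup G) : Set G)) := h32 ▸ Subgroup.card_dvd_of_le hHN
  have h2 : 5 ∣ Nat.card (Subgroup.normalizer ((P : Subgroup G) : Set G)) := by
    have := Subgroup.card_dvd_of_le (Subgroup.le_normalizer (H := (P : Subgroup G)))
    rwa [hPc] at this
  have h3 : 160 ∣ Nat.card (Subgroup.normalizer ((P : Subgroup G) : Set G)) := by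
    have : Nat.Coprime 32 5 := by norm_num
    exact this.mul_dvd_of_dvd_of_dvd h1 h2
  have h4 := (Subgroup.normalizer ((P : Subgroup G) : Set G)).card_mul_index
  rw [hG] at h4
  have h5 : Nat.card (Sylow 5 G) = (Subgroup.normalizer ((P : Subgroup G) : Set G)).index := Sylow.card_eq_index_normalizer P
  have h6 : Nat.card (Sylow 5 G) ≡ 1 [MOD 5] := card_sylow_modEq_one 5 G
  rw [h5] at h6
  obtain ⟨c, hc'⟩ := h3
  rw [hc'] at h4
  have h7 : c * (Subgroup.normalizer ((P : Subgroup G) : Set G)).index = 2 := by nlinarith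
  have h8 : (Subgroup.normalizer ((P : Subgroup G) : Set G)).index = 1 := by
    have h9 : (Subgroup.normalizer ((P : Subgroup G) : Set G)).index ∣ 2 := ⟨c, by rw [← h7]; ring⟩
    have h10 : (Subgroup.normalizer ((P : Subgroup G) : Set G)).index ≤ 2 := Nat.le_of_dvd (by norm_num) h9
    unfold Nat.ModEq at h6
    interval_cases hh : (Subgroup.normalizer ((P : Subgroup G) : Set G)).index
    · simp at h7
    · rfl
    · norm_num at h6
  have h9 : (P : Subgroup G).Normal := by
    rw [← Subgroup.normalizer_eq_top_iff]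
    exact Subgroup.index_eq_one.1 h8
  have h10 : (P : Subgroup G) ≤ H := hfit _ h9 P.isPGroup'.isNilpotent
  have h11 : y ∈ H := h10 (hP (Subgroup.mem_zpowers y))
  have h12 : orderOf (⟨y, h11⟩ : H) ∣ 32 := h32 ▸ orderOf_dvd_natCard _
  rw [Subgroup.orderOf_mk, hy] at h12
  norm_num at h12

theorem fixed_in_center (H : Subgroup G) [H.Normal] (hG : Nat.card G = 320)
    (h32 : Nat.card H = 32)
    (hfit : ∀ N : Subgroup G, N.Normal → Group.IsNilpotent N → N ≤ H)
    (hc2 : Nat.card (center H) = 2)
    (y : G) (hy : orderOf y = 5) (h : H)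
    (hh : h⁻¹ * MulAut.conjNormal y h ∈ center H) : h ∈ center H := by
  haveI : Fact (Nat.Prime 5) := ⟨by norm_num⟩
  set φ : MulAut H := MulAut.conjNormal y with hφ
  set z := h⁻¹ * φ h with hz
  have hφh : φ h = h * z := by rw [hz]; group
  have hφz : φ z = z := fix_center hc2 φ z hh
  have hpow : ∀ n : ℕ, (φ ^ n) h = h * z ^ n := by
    intro n
    induction n with
    | zero => simp
    | succ n ih =>
      rw [pow_succ', MulAut.mul_apply, ih, map_mul, map_pow, hφh, hφz, pow_succ', mul_assoc]
  have hφ5 : φ ^ 5 = 1 := by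
    rw [hφ, ← map_pow, ← hy, pow_orderOf_eq_one, map_one]
  have hz5 : z ^ 5 = 1 := by
    have := hpow 5
    rw [hφ5] at this
    simpa using this.symm
  have hz2 : z ^ 2 = 1 := by
    have : (⟨z, hh⟩ : center H) ^ 2 = 1 := by
      rw [← hc2]; exact pow_card_eq_one'
    simpa [Subtype.ext_iff] using this
  have hz1 : z = 1 := by
    calc z = z ^ 5 * ((z ^ 2) ^ 2)⁻¹ := by group
      _ = 1 := by rw [hz5, hz2]; simp
  have hfix : φ h = h := by rw [hφh, hz1, mul_one]
  let C : Subgroup H :=
    { carrier := {k | φ k = k}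
      one_mem' := map_one φ
      mul_mem' := by
        intro a b ha hb
        simp only [Set.mem_setOf_eq] at ha hb ⊢
        rw [map_mul, ha, hb]
      inv_mem' := by
        intro a ha
        simp only [Set.mem_setOf_eq] at ha ⊢
        rw [map_inv, ha] }
  have hCmem : ∀ k, k ∈ C ↔ φ k = k := fun k => Iff.rfl
  have hA : IsPGroup 5 (zpowers φ) := by
    intro g
    refine ⟨1, ?_⟩
    obtain ⟨g, hg⟩ := g
    obtain ⟨i, rfl⟩ := Subgroup.mem_zpowers_iff.1 hg
    apply Subtype.ext
    simp only [pow_one, Subgroup.coe_pow, Subgroup.coe_one]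
    rw [← zpow_natCast, ← zpow_mul, mul_comm, zpow_mul, zpow_natCast, hφ5, one_zpow]
  have hmod := hA.card_modEq_card_fixedPoints H
  have hset : (MulAction.fixedPoints (zpowers φ) H : Set H) = (C : Set H) := by
    ext k
    simp only [MulAction.mem_fixedPoints, SetLike.mem_coe, hCmem]
    constructor
    · intro hk
      exact hk ⟨φ, Subgroup.mem_zpowers φ⟩
    · intro hk a
      have h1 : φ ∈ MulAction.stabilizer (MulAut H) k := hk
      have h2 : zpowers φ ≤ MulAction.stabilizer (MulAut H) k := by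
        rw [Subgroup.zpowers_le]; exact h1
      exact h2 a.2
  have hcard : Nat.card (MulAction.fixedPoints (zpowers φ) H) = Nat.card C := by
    rw [hset]; rfl
  rw [hcard, h32] at hmod
  have hdvd : Nat.card C ∣ 2 ^ 5 := by
    have := Subgroup.card_subgroup_dvd_card C
    rw [h32] at this; simpa using this
  obtain ⟨j, hj, hjc⟩ := (Nat.dvd_prime_pow Nat.prime_two).1 hdvd
  have hZC : center H ≤ C := fun k hk => fix_center hc2 φ k hk
  unfold Nat.ModEq at hmod
  rw [hjc] at hmod
  interval_cases j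
  · norm_num at hmod
  · have : center H = C := Subgroup.eq_of_le_of_card_ge hZC (by rw [hc2, hjc]; norm_num)
    rw [this]; exact hfix
  · norm_num at hmod
  · norm_num at hmod
  · norm_num at hmod
  · exfalso
    have htop : C = ⊤ := by
      rw [← Subgroup.card_eq_iff_eq_top, hjc, h32]; norm_num
    apply no_cent H hG h32 hfit y hy
    intro k hk
    have h1 : (⟨k, hk⟩ : H) ∈ C := by rw [htop]; trivial
    have h2 : φ ⟨k, hk⟩ = ⟨k, hk⟩ := h1
    have h3 := congrArg Subtype.val h2
    rw [hφ, MulAut.conjNormal_apply] at h3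
    simp only at h3
    calc k * y = (y * k * y⁻¹) * y := by rw [h3]
      _ = y * k := by group

theorem main (H : Subgroup G) [hHn : H.Normal] (hG : Nat.card G = 320)
    (h32 : Nat.card H = 32)
    (hmax : ∀ N : Subgroup G, N.Normal → IsPGroup 2 N → N ≤ H)
    (hfit : ∀ N : Subgroup G, N.Normal → Group.IsNilpotent N → N ≤ H)
    (hc2 : Nat.card (center H) = 2)
    (hcomm : ∀ a b : H, ⁅a, b⁆ ∈ center H) (hsq : ∀ a : H, a ^ 2 ∈ center H)
    (T : G) (hT : orderOf T = 2) (hTH : T ∉ H)
    (h : G) (hh : h ∈ H) (hTh : T * h = h * T) : h ^ 2 = 1 := by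
  haveI : Fact (Nat.Prime 5) := ⟨by norm_num⟩
  haveI : Fact (Nat.Prime 2) := ⟨by norm_num⟩
  have hT2 : T * T = 1 := by
    rw [← pow_two, ← hT]; exact pow_orderOf_eq_one T
  have hTinv : T⁻¹ = T := inv_eq_of_mul_eq_one_left hT2
  -- Step A
  have hQ : Nat.card (G ⧸ H) = 10 := by
    have := Subgroup.card_eq_card_quotient_mul_card_subgroup H
    rw [hG, h32] at this; omega
  obtain ⟨P, hP⟩ := Sylow.exists_subgroup_card_pow_prime (G := G ⧸ H) 5 (n := 1) (by rw [hQ]; norm_num)
  set K := P.comap (QuotientGroup.mk' H) with hK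
  have hKi : K.index = 2 := by
    rw [hK, Subgroup.index_comap_of_surjective _ (QuotientGroup.mk'_surjective _)]
    have := P.card_mul_index
    rw [hP, hQ] at this; omega
  haveI hKn : K.Normal := Subgroup.normal_of_index_eq_two hKi
  have hK5 : ∀ w ∈ K, w ^ 5 ∈ H := by
    intro w hw
    rw [hK, Subgroup.mem_comap] at hw
    have : (⟨_, hw⟩ : P) ^ 5 = 1 := by
      have := pow_card_eq_one' (x := (⟨_, hw⟩ : P))
      rwa [hP, pow_one] at this
    have h2 := congrArg Subtype.val this
    simp only [Subgroup.coe_pow, Subgroup.coe_one, QuotientGroup.mk'_apply] at h2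
    rw [← QuotientGroup.mk_pow, QuotientGroup.eq_one_iff] at h2
    exact h2
  have hTK : T ∉ K := by
    intro hk
    apply hTH
    have := hK5 T hk
    have e : T ^ 5 = T := by
      calc T ^ 5 = (T * T) * (T * T) * T := by simp only [pow_succ, pow_zero, one_mul, mul_assoc]
        _ = T := by rw [hT2]; simp
    rwa [e] at this
  -- Step B
  have hB : ∃ k ∈ K, T * k * T * k⁻¹ ∉ H := by
    by_contra hcon
    push_neg at hcon
    set N := H ⊔ zpowers T with hN
    have hTN : T ∈ N := Subgroup.mem_sup_right (Subgroup.mem_zpowers T)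
    have hconjK : ∀ g ∈ K, g * T * g⁻¹ ∈ N := by
      intro g hg
      have h1 : T * g * T * g⁻¹ ∈ N := Subgroup.mem_sup_left (hcon g hg)
      have e : g * T * g⁻¹ = T * (T * g * T * g⁻¹) := by
        calc g * T * g⁻¹ = (T * T) * (g * T * g⁻¹) := by rw [hT2, one_mul]
          _ = _ := by group
      rw [e]; exact mul_mem hTN h1
    have hconj : ∀ g, g * T * g⁻¹ ∈ N := by
      intro g
      by_cases hg : g ∈ K
      · exact hconjK g hg
      · have hgT : g * T ∈ K := by
          rw [Subgroup.mul_mem_iff_of_index_two hKi]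
          exact ⟨fun h => absurd h hg, fun h => absurd h hTK⟩
        have := hconjK _ hgT
        have e : g * T * T * (g * T)⁻¹ = g * T * g⁻¹ := by
          rw [mul_inv_rev, hTinv]
          calc g * T * T * (T * g⁻¹) = g * T * (T * T) * g⁻¹ := by group
            _ = _ := by rw [hT2, mul_one]
        rwa [e] at this
    have hNn : N.Normal := by
      have hmap : ∀ g : G, N.map (MulAut.conj g).toMonoidHom ≤ N := by
        intro g
        rw [hN, Subgroup.map_sup, sup_le_iff]
        constructor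
        · rintro _ ⟨x, hx, rfl⟩
          exact Subgroup.mem_sup_left (hHn.conj_mem x hx g)
        · rw [MonoidHom.map_zpowers, Subgroup.zpowers_le]
          exact hconj g
      exact ⟨fun n hn g => hmap g ⟨n, hn, rfl⟩⟩
    have hNp : IsPGroup 2 N := by
      apply IsPGroup.to_sup_of_normal_left
      · exact IsPGroup.of_card (n := 5) (by rw [h32]; norm_num)
      · exact IsPGroup.of_card (n := 1) (by rw [Nat.card_zpowers, hT]; norm_num)
    exact hTH (hmax N hNn hNp hTN)
  obtain ⟨k, hk, hw⟩ := hB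
  set w := T * k * T * k⁻¹ with hwdef
  have hwK : w ∈ K := by
    have h1 : T * k * T⁻¹ ∈ K := hKn.conj_mem k hk T
    rw [hTinv] at h1
    exact mul_mem h1 (inv_mem hk)
  have hTw : T * w * T = w⁻¹ := by
    rw [hwdef]
    simp only [mul_inv_rev, inv_inv, hTinv]
    calc T * (T * k * T * k⁻¹) * T = (T * T) * (k * T * k⁻¹ * T) := by group
      _ = k * (T * (k⁻¹ * T)) := by rw [hT2]; group
  clear_value w
  have hTwn : ∀ n : ℕ, T * w ^ n * T = (w ^ n)⁻¹ := by
    intro n
    induction n with
    | zero => simpa using hT2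
    | succ n ih =>
      calc T * w ^ (n + 1) * T = (T * w ^ n * T) * (T * T)⁻¹ * (T * w * T) := by
            rw [pow_succ]; simp only [mul_inv_rev, hTinv]
            calc T * (w ^ n * w) * T = T * w ^ n * 1 * 1 * w * T := by group
              _ = T * w ^ n * (T * T) * (T * T) * w * T := by rw [hT2]
              _ = _ := by group
        _ = (w ^ n)⁻¹ * w⁻¹ := by rw [ih, hTw, hT2]; simp
        _ = (w ^ (n + 1))⁻¹ := by rw [pow_succ', mul_inv_rev]
  set y := w ^ 64 with hy
  have hy1 : y ≠ 1 := by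
    intro h1
    apply hw
    have h5 := hK5 w hwK
    have e : w = (w ^ 5) ^ 13 * (w ^ 64)⁻¹ := by group
    rw [e, ← hy, h1]
    simpa using pow_mem h5 13
  have hy5 : y ^ 5 = 1 := by
    rw [hy, ← pow_mul, show 64 * 5 = 320 by norm_num, ← hG]
    exact pow_card_eq_one'
  have hyo : orderOf y = 5 := orderOf_eq_prime hy5 hy1
  set s := w ^ 32 with hs
  -- automorphisms
  set τ : MulAut H := MulAut.conjNormal T with hτ
  set σ : MulAut H := MulAut.conjNormal s⁻¹ with hσ
  have hττ : ∀ x, τ (τ x) = x := by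
    intro x
    have : τ * τ = 1 := by rw [hτ, ← map_mul, hT2, map_one]
    have h2 := congrArg (fun f : MulAut H => f x) this
    simpa using h2
  have hprod : τ * (σ * τ * σ⁻¹) = MulAut.conjNormal y := by
    rw [hτ, hσ, ← map_inv, ← map_mul, ← map_mul, ← map_mul]
    congr 1
    rw [inv_inv]
    have h1 := hTwn 32
    rw [← hs] at h1
    -- T * (s⁻¹ * T * s) = s * s
    have h2 : T * s⁻¹ * T = s := by
      calc T * s⁻¹ * T = (T * s * T)⁻¹ := by simp only [mul_inv_rev, hTinv, mul_assoc]
        _ = s := by rw [h1, inv_inv]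
    calc T * (s⁻¹ * T * s) = (T * s⁻¹ * T) * s := by group
      _ = s * s := by rw [h2]
      _ = y := by rw [hs, hy, ← pow_add]
  have key := sq_eq_one_of_fixed hc2 h32 hcomm hsq τ (σ * τ * σ⁻¹) hττ
    (card_ker_conj hcomm τ σ)
    (by
      intro x hx
      apply fixed_in_center H hG h32 hfit hc2 y hyo x
      rw [← hprod]
      exact hx)
    ⟨h, hh⟩
    (by
      apply Subtype.ext
      rw [hτ, MulAut.conjNormal_apply]
      simp only
      rw [hTh]; group)
  have := congrArg Subtype.val key
  simpa using this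

end Cfsg.Agent.Lib.Helper50Ex32G
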