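import Cfsg.Agent.Lib.Helper46Bruhat
import Cfsg.Agent.Lib.Helper50Syl

set_option autoImplicit false

namespace Cfsg.Agent.Lib.Helper50Opp
open Cfsg.Agent.Lib.Helper46Bruhat Cfsg.Agent.Lib.Helper50Syl Matrix
open scoped MatrixGroups

variable {n : ℕ}

theorem eq_one_of_ne_zero (x : ZMod 2) (h : x ≠ 0) : x = 1 := by
  revert x; decide

/-- the upper unitriangular subgroup of `SL_n(2)` -/
abbrev UU (n : ℕ) : Subgroup (Matrix.SpecialLinearGroup (Fin n) (ZMod 2)) :=
  U (ZMod 2) (1 : Equiv.Perm (Fin n))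

theorem det_GL (M : GL (Fin n) (ZMod 2)) : (M : Matrix (Fin n) (Fin n) (ZMod 2)).det = 1 := by
  apply eq_one_of_ne_zero
  have := (Matrix.isUnit_iff_isUnit_det _).1 M.isUnit
  exact this.ne_zero

/-- `GL_n(2) = SL_n(2)` -/
def toSL (M : GL (Fin n) (ZMod 2)) : Matrix.SpecialLinearGroup (Fin n) (ZMod 2) := ⟨M.1, det_GL M⟩

theorem toSL_mem (M : GL (Fin n) (ZMod 2)) (h : M ∈ Cfsg.upperTriangularGL n (ZMod 2)) :
    toSL M ∈ UU n := by
  have h' : (M : Matrix (Fin n) (Fin n) (ZMod 2)).BlockTriangular id := h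
  rw [mem_U]
  refine ⟨fun a b hab => h' hab, fun a => ?_⟩
  apply eq_one_of_ne_zero
  have hd := det_GL M
  rw [Matrix.det_of_upperTriangular h'] at hd
  intro h0
  have : ∏ i, (M : Matrix (Fin n) (Fin n) (ZMod 2)) i i = 0 :=
    Finset.prod_eq_zero (Finset.mem_univ a) h0
  rw [this] at hd
  exact zero_ne_one hd

/-- permutation matrices in `SL_n(2)` -/
def pS (w : Equiv.Perm (Fin n)) : Matrix.SpecialLinearGroup (Fin n) (ZMod 2) := toSL (pmGL w)

theorem pS_coe (w : Equiv.Perm (Fin n)) :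
    (pS w : Matrix (Fin n) (Fin n) (ZMod 2)) = pm w := rfl

theorem bruhat2 (g : Matrix.SpecialLinearGroup (Fin n) (ZMod 2)) :
    ∃ w : Equiv.Perm (Fin n), ∃ b ∈ UU n, ∃ b' ∈ UU n, g = b * pS w * b' := by
  obtain ⟨w, b, hb, b', hb', h⟩ := bruhat (Matrix.SpecialLinearGroup.toGL g)
  refine ⟨w, toSL b, toSL_mem b hb, toSL b', toSL_mem b' hb', ?_⟩
  apply Subtype.ext
  exact congrArg Units.val h

theorem single_mul_pm (w : Equiv.Perm (Fin n)) (a c : Fin n) :
    Matrix.single (w a) (w c) (1 : ZMod 2) * pm w = pm w * Matrix.single a c 1 := by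
  ext i l
  rw [Matrix.mul_apply, Matrix.mul_apply]
  simp only [Matrix.single_apply, pm_apply]
  rw [Finset.sum_eq_single (w c), Finset.sum_eq_single a]
  · by_cases h1 : w a = i
    · by_cases h2 : c = l <;> simp [h1, h2]
    · have h1' : ¬ i = w a := fun h => h1 h.symm
      by_cases h2 : c = l <;> simp [h1, h2, h1']
  · intro b _ hb
    simp [hb.symm]
  · intro h; exact absurd (Finset.mem_univ _) h
  · intro b _ hb
    simp [hb.symm]
  · intro h; exact absurd (Finset.mem_univ _) h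

/-- elementary transvections -/
def tS (a c : Fin n) (h : a ≠ c) : Matrix.SpecialLinearGroup (Fin n) (ZMod 2) :=
  ⟨Matrix.transvection a c 1, Matrix.det_transvection_of_ne a c h 1⟩

theorem tS_mem (a c : Fin n) (h : a < c) : tS a c h.ne ∈ UU n := by
  rw [mem_U]
  refine ⟨fun i j hij => ?_, fun i => ?_⟩
  · have hij' : j < i := hij
    show Matrix.transvection a c (1 : ZMod 2) i j = 0
    rw [Matrix.transvection, Matrix.add_apply, Matrix.one_apply_ne hij'.ne', Matrix.single_apply]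
    rw [if_neg, add_zero]
    rintro ⟨rfl, rfl⟩
    exact lt_asymm h hij'
  · show Matrix.transvection a c (1 : ZMod 2) i i = 1
    rw [Matrix.transvection, Matrix.add_apply, Matrix.one_apply_eq, Matrix.single_apply]
    rw [if_neg, add_zero]
    rintro ⟨rfl, h2⟩
    exact h.ne h2.symm

theorem tS_ne_one (a c : Fin n) (h : a ≠ c) : tS a c h ≠ 1 := by
  intro h1
  have h2 : Matrix.transvection a c (1 : ZMod 2) = 1 := congrArg Subtype.val h1
  have h3 := congrFun (congrFun h2 a) c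
  rw [Matrix.transvection, Matrix.add_apply, Matrix.one_apply_ne h, Matrix.single_apply_same] at h3
  simp at h3

theorem tS_mul_pS (w : Equiv.Perm (Fin n)) (a c : Fin n) (h : a ≠ c) :
    tS (w a) (w c) (fun h' => h (w.injective h')) * pS w = pS w * tS a c h := by
  apply Subtype.ext
  show Matrix.transvection (w a) (w c) (1 : ZMod 2) * pm w = pm w * Matrix.transvection a c 1
  rw [Matrix.transvection, Matrix.transvection, add_mul, mul_add, one_mul, mul_one, single_mul_pm]

theorem eq_rev (w : Equiv.Perm (Fin n)) (h : ∀ a c : Fin n, a < c → w c < w a) (i : Fin n) :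
    w i = Fin.rev i := by
  have hf : StrictMono (fun i => Fin.rev (w i)) := by
    intro a c hac
    exact Fin.rev_lt_rev.2 (h a c hac)
  have h1 : i ≤ Fin.rev (w i) := hf.le_apply
  have h2 : Fin.rev (w i) ≤ i := hf.apply_le
  have h3 := le_antisymm h2 h1
  conv_rhs => rw [← h3]
  rw [Fin.rev_rev]

/-- opposite conjugates of `U` come from the big cell -/
theorem opp (g : Matrix.SpecialLinearGroup (Fin n) (ZMod 2))
    (h : ∀ s ∈ UU n, g⁻¹ * s * g ∈ UU n → s = 1) :
    ∃ b ∈ UU n, ∃ b' ∈ UU n, g = b * pS Fin.revPerm * b' := by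
  obtain ⟨w, b, hb, b', hb', rfl⟩ := bruhat2 g
  have hw : ∀ a c : Fin n, a < c → w c < w a := by
    intro a c hac
    by_contra hlt
    have hlt' : w a < w c := by
      rcases lt_trichotomy (w a) (w c) with h1 | h1 | h1
      · exact h1
      · exact absurd (w.injective h1) hac.ne
      · exact absurd h1 hlt
    have hs := h (b * tS (w a) (w c) hlt'.ne * b⁻¹)
      (mul_mem (mul_mem hb (tS_mem _ _ hlt')) (inv_mem hb)) (by
        have e : (b * pS w * b')⁻¹ * (b * tS (w a) (w c) hlt'.ne * b⁻¹) * (b * pS w * b')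
            = b'⁻¹ * ((pS w)⁻¹ * (tS (w a) (w c) hlt'.ne * pS w)) * b' := by group
        rw [e, tS_mul_pS w a c hac.ne, inv_mul_cancel_left]
        exact mul_mem (mul_mem (inv_mem hb') (tS_mem _ _ hac)) hb')
    apply tS_ne_one (w a) (w c) hlt'.ne
    have : tS (w a) (w c) hlt'.ne = b⁻¹ * (b * tS (w a) (w c) hlt'.ne * b⁻¹) * b := by group
    rw [this, hs]
    group
  have : w = Fin.revPerm := by
    ext i
    rw [eq_rev w hw i]
    rfl
  exact ⟨b, hb, b', hb', by rw [this]⟩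

theorem trans_opp (g g' : Matrix.SpecialLinearGroup (Fin n) (ZMod 2))
    (h : ∀ s ∈ UU n, g⁻¹ * s * g ∈ UU n → s = 1)
    (h' : ∀ s ∈ UU n, g'⁻¹ * s * g' ∈ UU n → s = 1) :
    ∃ u ∈ UU n, g⁻¹ * u * g' ∈ UU n := by
  obtain ⟨b, hb, c, hc, rfl⟩ := opp g h
  obtain ⟨b', hb', c', hc', rfl⟩ := opp g' h'
  refine ⟨b * b'⁻¹, mul_mem hb (inv_mem hb'), ?_⟩
  have e : (b * pS Fin.revPerm * c)⁻¹ * (b * b'⁻¹) * (b' * pS Fin.revPerm * c') = c⁻¹ * c' := by
    group
  rw [e]
  exact mul_mem (inv_mem hc) hc'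

end Cfsg.Agent.Lib.Helper50Opp
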