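import Cfsg.Agent.Lib.Helper50Opp

set_option autoImplicit false

namespace Cfsg.Agent.Lib.Helper50OppAbs
open Cfsg.Agent.Lib.Helper50Opp Cfsg.Agent.Lib.Helper50Syl
open scoped Pointwise

theorem core {G : Type*} [Group G] [Finite G] (N : Subgroup G) [N.Normal] (hidx : N.index = 2)
    (P : Subgroup G) (hPN : P ≤ N)
    (hmax : ∀ Q : Subgroup G, IsPGroup 2 Q → Q ≤ N → P ≤ Q → Q ≤ P)
    (hT : ∀ g ∈ N, ∀ g' ∈ N, (∀ s ∈ P, g⁻¹ * s * g ∈ P → s = 1) →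
      (∀ s ∈ P, g'⁻¹ * s * g' ∈ P → s = 1) → ∃ u ∈ P, g⁻¹ * u * g' ∈ P)
    (H : Sylow 2 G) (hPH : P ≤ H) (z : G) : ∃ t ∈ H, t ≠ 1 ∧ z⁻¹ * t * z ∈ H := by
  have hinf : ∀ s ∈ H, s ∈ N → s ∈ P := by
    intro s hs hsN
    exact hmax ((H : Subgroup G) ⊓ N) (H.2.to_le inf_le_left) inf_le_right (le_inf hPH hPN)
      ⟨hs, hsN⟩
  obtain ⟨τ, hτH, hτN⟩ : ∃ τ ∈ H, τ ∉ N := by
    by_contra hno
    push_neg at hno
    have hle : (H : Subgroup G) ≤ N := hno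
    have h1 := Subgroup.index_dvd_of_le hle
    rw [hidx] at h1
    exact H.not_dvd_index h1
  have hτP : ∀ s ∈ P, τ⁻¹ * s * τ ∈ P := by
    intro s hs
    apply hinf
    · exact mul_mem (mul_mem (inv_mem hτH) (hPH hs)) hτH
    · have := (inferInstance : N.Normal).conj_mem s (hPN hs) τ⁻¹
      rwa [inv_inv] at this
  have hτP' : ∀ s ∈ P, τ * s * τ⁻¹ ∈ P := by
    intro s hs
    apply hinf
    · exact mul_mem (mul_mem hτH (hPH hs)) (inv_mem hτH)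
    · exact (inferInstance : N.Normal).conj_mem s (hPN hs) τ
  have key : ∀ z ∈ N, ∃ t ∈ H, t ≠ 1 ∧ z⁻¹ * t * z ∈ H := by
    intro z hz
    by_contra hno
    push_neg at hno
    have h1 : ∀ s ∈ P, z⁻¹ * s * z ∈ P → s = 1 := by
      intro s hs hs'
      by_contra hs1
      exact hno s (hPH hs) hs1 (hPH hs')
    have hz2 : τ * z * τ⁻¹ ∈ N := (inferInstance : N.Normal).conj_mem z hz τ
    have h2 : ∀ s ∈ P, (τ * z * τ⁻¹)⁻¹ * s * (τ * z * τ⁻¹) ∈ P → s = 1 := by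
      intro s hs hs'
      have h3 := hτP _ hs'
      have e : τ⁻¹ * ((τ * z * τ⁻¹)⁻¹ * s * (τ * z * τ⁻¹)) * τ = z⁻¹ * (τ⁻¹ * s * τ) * z := by
        group
      rw [e] at h3
      have h4 := h1 _ (hτP s hs) h3
      have : s = τ * (τ⁻¹ * s * τ) * τ⁻¹ := by group
      rw [this, h4]
      group
    obtain ⟨u, hu, hu'⟩ := hT z hz _ hz2 h1 h2
    have hne : u * τ ≠ 1 := by
      intro h
      apply hτN
      have : τ = u⁻¹ := eq_inv_of_mul_eq_one_right h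
      rw [this]
      exact inv_mem (hPN hu)
    refine hno (u * τ) (mul_mem (hPH hu) hτH) hne ?_
    have e : z⁻¹ * (u * τ) * z = (z⁻¹ * u * (τ * z * τ⁻¹)) * τ := by group
    rw [e]
    exact mul_mem (hPH hu') hτH
  by_cases hz : z ∈ N
  · exact key z hz
  · have hzτ : z * τ ∈ N := (Subgroup.mul_mem_iff_of_index_two hidx).2 (by simp [hz, hτN])
    obtain ⟨t, ht, ht1, ht'⟩ := key _ hzτ
    refine ⟨t, ht, ht1, ?_⟩
    have e : z⁻¹ * t * z = τ * ((z * τ)⁻¹ * t * (z * τ)) * τ⁻¹ := by group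
    rw [e]
    exact mul_mem (mul_mem hτH ht') (inv_mem hτH)

theorem meet {G : Type*} [Group G] [Finite G] (N : Subgroup G) [N.Normal] (hidx : N.index = 2)
    (P : Subgroup G) (hPN : P ≤ N) (hP2 : IsPGroup 2 P)
    (hmax : ∀ Q : Subgroup G, IsPGroup 2 Q → Q ≤ N → P ≤ Q → Q ≤ P)
    (hT : ∀ g ∈ N, ∀ g' ∈ N, (∀ s ∈ P, g⁻¹ * s * g ∈ P → s = 1) →
      (∀ s ∈ P, g'⁻¹ * s * g' ∈ P → s = 1) → ∃ u ∈ P, g⁻¹ * u * g' ∈ P)
    (H : Sylow 2 G) (x : G) : (H : Subgroup G) ⊓ MulAut.conj x • (H : Subgroup G) ≠ ⊥ := by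
  obtain ⟨H', hH'⟩ := hP2.exists_le_sylow
  obtain ⟨y, rfl⟩ := MulAction.exists_smul_eq G H' H
  obtain ⟨t, ht, ht1, ht'⟩ := core N hidx P hPN hmax hT H' hH' (y⁻¹ * x * y)
  intro hbot
  have hmem : y * t * y⁻¹ ∈ ((y • H' : Sylow 2 G) : Subgroup G) ⊓
      MulAut.conj x • ((y • H' : Sylow 2 G) : Subgroup G) := by
    constructor
    · rw [Sylow.coe_subgroup_smul]
      exact ⟨t, ht, rfl⟩
    · rw [Sylow.coe_subgroup_smul]
      refine ⟨y * ((y⁻¹ * x * y)⁻¹ * t * (y⁻¹ * x * y)) * y⁻¹, ⟨_, ht', rfl⟩, ?_⟩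
      show x * (y * ((y⁻¹ * x * y)⁻¹ * t * (y⁻¹ * x * y)) * y⁻¹) * x⁻¹ = y * t * y⁻¹
      group
  rw [hbot, Subgroup.mem_bot] at hmem
  apply ht1
  have : t = y⁻¹ * (y * t * y⁻¹) * y := by group
  rw [this, hmem]
  group

theorem main {G : Type*} [Group G] [Finite G] {n : ℕ} (N : Subgroup G) [N.Normal]
    (e : N ≃* Matrix.SpecialLinearGroup (Fin n) (ZMod 2)) (hidx : N.index = 2)
    (H : Sylow 2 G) (x : G) : (H : Subgroup G) ⊓ MulAut.conj x • (H : Subgroup G) ≠ ⊥ := by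
  haveI : Fact (Nat.Prime 2) := ⟨Nat.prime_two⟩
  obtain ⟨S, hS⟩ := exists_sylow (F := ZMod 2) 2 (1 : Equiv.Perm (Fin n))
  set P : Subgroup G := ((UU n).comap e.toMonoidHom).map N.subtype with hP
  have hmemP : ∀ (g : G) (hg : g ∈ N), g ∈ P ↔ e ⟨g, hg⟩ ∈ UU n := by
    intro g hg
    constructor
    · rintro ⟨y, hy, rfl⟩
      exact hy
    · intro h
      exact ⟨⟨g, hg⟩, h, rfl⟩
  have hPN : P ≤ N := by
    rintro _ ⟨y, _, rfl⟩
    exact y.2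
  have hU2 : IsPGroup 2 (UU n) := by
    have := S.2
    rwa [hS] at this
  have hP2 : IsPGroup 2 P :=
    (hU2.comap_of_injective e.toMonoidHom e.injective).map _
  apply meet N hidx P hPN hP2
  · intro Q hQ hQN hPQ q hq
    have hQ' : IsPGroup 2 ((Q.subgroupOf N).map e.toMonoidHom) := (hQ.comap_subtype).map _
    have hle : (S : Subgroup _) ≤ (Q.subgroupOf N).map e.toMonoidHom := by
      rw [hS]
      intro u hu
      refine ⟨e.symm u, ?_, by simp⟩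
      apply Subgroup.mem_subgroupOf.2
      apply hPQ
      rw [hmemP _ (e.symm u).2]
      simpa using hu
    have heq := S.is_maximal' hQ' hle
    rw [hmemP q (hQN hq)]
    have : e ⟨q, hQN hq⟩ ∈ (Q.subgroupOf N).map e.toMonoidHom :=
      ⟨⟨q, hQN hq⟩, Subgroup.mem_subgroupOf.2 hq, rfl⟩
    rw [heq, hS] at this
    exact this
  · intro g hg g' hg' h h'
    have tr : ∀ (g : G) (hg : g ∈ N), (∀ s ∈ P, g⁻¹ * s * g ∈ P → s = 1) →
        ∀ s ∈ UU n, (e ⟨g, hg⟩)⁻¹ * s * e ⟨g, hg⟩ ∈ UU n → s = 1 := by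
      intro g hg h s hs hs'
      have h1 : ((e.symm s : N) : G) ∈ P := by
        rw [hmemP _ (e.symm s).2]
        simpa using hs
      have h2 : g⁻¹ * ((e.symm s : N) : G) * g ∈ P := by
        have hm : g⁻¹ * ((e.symm s : N) : G) * g ∈ N :=
          mul_mem (mul_mem (inv_mem hg) (e.symm s).2) hg
        rw [hmemP _ hm]
        have : (⟨g⁻¹ * ((e.symm s : N) : G) * g, hm⟩ : N) = (⟨g, hg⟩ : N)⁻¹ * e.symm s * ⟨g, hg⟩ :=
          rfl
        rw [this, map_mul, map_mul, map_inv, e.apply_symm_apply]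
        exact hs'
      have h3 := h _ h1 h2
      have h4 : e.symm s = 1 := Subtype.ext h3
      have : s = e (e.symm s) := (e.apply_symm_apply s).symm
      rw [this, h4, map_one]
    obtain ⟨u, hu, hu'⟩ := trans_opp (e ⟨g, hg⟩) (e ⟨g', hg'⟩) (tr g hg h) (tr g' hg' h')
    refine ⟨(e.symm u : N), ?_, ?_⟩
    · rw [hmemP _ (e.symm u).2]
      simpa using hu
    · have hm : g⁻¹ * ((e.symm u : N) : G) * g' ∈ N :=
        mul_mem (mul_mem (inv_mem hg) (e.symm u).2) hg'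
      rw [hmemP _ hm]
      have : (⟨g⁻¹ * ((e.symm u : N) : G) * g', hm⟩ : N) = (⟨g, hg⟩ : N)⁻¹ * e.symm u * ⟨g', hg'⟩ :=
        rfl
      rw [this, map_mul, map_mul, map_inv, e.apply_symm_apply]
      exact hu'

end Cfsg.Agent.Lib.Helper50OppAbs
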