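import Cfsg.Agent.Lib.Helper50SzCore

set_option autoImplicit false

/-!
The automorphism group of a group isomorphic to the model group `M`.
-/

namespace Cfsg.Agent.Lib.Helper50SzAutMain

open Module Cfsg.Agent.Lib.Helper50SzM Cfsg.Agent.Lib.Helper50SzKL Cfsg.Agent.Lib.Helper50SzAut
  Cfsg.Agent.Lib.Helper50SzTheta Cfsg.Agent.Lib.Helper50SzCard Cfsg.Agent.Lib.Helper50SzCore

variable {K : Type*} [Field K] [CharP K 2] [Finite K] {σ : K →+* K} {hσ : ∀ x, σ (σ x) = x}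

theorem main_abs (hcomm : ∀ (τ : K ≃+* K) (x : K), σ (τ x) = τ (σ x))
    (htr : ∀ d, σ d = d → ∃ c, c + σ c = d) (ω : K) (hω : σ ω ≠ ω) {n : ℕ}
    (hK : Nat.card K = 2 ^ (2 * n)) (hfix : Nat.card {x : K // σ x = x} = 2 ^ n)
    {S : Type*} [Group S] (E : S ≃* M σ hσ) :
    Cfsg.IsElementaryAbelian 2 (Cfsg.pCore 2 (MulAut S)) ∧
      Nat.card ↥(Cfsg.pCore 2 (MulAut S)) = 2 ^ (2 * n ^ 2) ∧
      Nat.card (MulAut S) = 2 ^ (2 * n ^ 2) * (2 * n * ((2 ^ n) ^ 2 - 1)) := by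
  let Φ : MulAut S ≃* MulAut (M σ hσ) := MulAut.congr E
  have hCp : IsPGroup 2 (CC σ hσ) := by
    intro g
    refine ⟨1, ?_⟩
    apply Subtype.ext
    have := CC_sq hcomm htr ω hω g.1 g.2
    simpa using this
  have hcore : Cfsg.pCore 2 (MulAut S) = (CC σ hσ).map Φ.symm.toMonoidHom := by
    apply le_antisymm
    · apply sSup_le
      rintro N ⟨hN1, hN2⟩ x hx
      have h1 : Φ x ∈ CC σ hσ :=
        le_CC hcomm htr ω hω (N.map Φ.toMonoidHom) (hN1.map Φ.toMonoidHom Φ.surjective)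
          (hN2.map Φ.toMonoidHom) (Subgroup.mem_map_of_mem Φ.toMonoidHom hx)
      exact ⟨Φ x, h1, Φ.symm_apply_apply x⟩
    · apply le_sSup
      exact ⟨Subgroup.Normal.map inferInstance _ Φ.symm.surjective, hCp.map _⟩
  have hHk : Nat.card (Hk σ) = 2 ^ (2 * n ^ 2) := by
    rw [card_Hk hK, hfix, ← pow_mul]
    congr 1
    ring
  refine ⟨?_, ?_, ?_⟩
  · rw [hcore]
    refine ⟨⟨⟨?_⟩⟩, ?_⟩
    · rintro ⟨_, ⟨α, hα, rfl⟩⟩ ⟨_, ⟨α', hα', rfl⟩⟩
      apply Subtype.ext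
      show Φ.symm α * Φ.symm α' = Φ.symm α' * Φ.symm α
      rw [← map_mul, ← map_mul, CC_comm hcomm htr ω hω α α' hα hα']
    · rintro _ ⟨α, hα, rfl⟩
      show (Φ.symm α) ^ 2 = 1
      rw [← map_pow, CC_sq hcomm htr ω hω α hα, map_one]
  · rw [hcore, Subgroup.card_map_of_injective Φ.symm.injective, card_CC hcomm htr ω hω, hHk]
  · rw [Nat.card_congr Φ.toEquiv, card_aut hcomm htr ω hω, hHk, card_ringAut hK, Nat.card_units, hK]
    have : (2 ^ n) ^ 2 = 2 ^ (2 * n) := by rw [← pow_mul, mul_comm]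
    rw [this]
    ring

end Cfsg.Agent.Lib.Helper50SzAutMain
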