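import Cfsg.Agent.Lib.Helper50SzTheta

set_option autoImplicit false

/-!
Cardinalities for the automorphism group of the model group `M`.
-/

namespace Cfsg.Agent.Lib.Helper50SzCard

open Module Cfsg.Agent.Lib.Helper50SzM Cfsg.Agent.Lib.Helper50SzKL Cfsg.Agent.Lib.Helper50SzAut
  Cfsg.Agent.Lib.Helper50SzTheta

variable {K : Type*} [Field K] [CharP K 2] [Finite K]

lemma finrank_eq {m : ℕ} (hK : Nat.card K = 2 ^ m) :
    letI := ZMod.algebra K 2
    finrank (ZMod 2) K = m := by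
  letI := ZMod.algebra K 2
  have h1 := Module.natCard_eq_pow_finrank (K := ZMod 2) (V := K)
  rw [hK, Nat.card_zmod] at h1
  exact (Nat.pow_right_injective (le_refl 2) h1).symm

theorem card_ringAut {m : ℕ} (hK : Nat.card K = 2 ^ m) : Nat.card (K ≃+* K) = m := by
  letI := ZMod.algebra K 2
  have h1 := IsGalois.card_aut_eq_finrank (ZMod 2) K
  rw [finrank_eq hK] at h1
  rw [← h1]
  apply Nat.card_congr
  refine ⟨fun τ => AlgEquiv.ofRingEquiv (f := τ) (fun r => ?_), fun e => e.toRingEquiv, ?_, ?_⟩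
  · exact RingHom.congr_fun (Subsingleton.elim (τ.toRingHom.comp (algebraMap (ZMod 2) K))
      (algebraMap (ZMod 2) K)) r
  · intro τ
    rfl
  · intro e
    rfl

theorem card_Hk {σ : K →+* K} {m : ℕ} (hK : Nat.card K = 2 ^ m) :
    Nat.card (Hk σ) = Nat.card {x : K // σ x = x} ^ m := by
  letI := ZMod.algebra K 2
  letI := ZMod.algebra (kk σ) 2
  have e1 : Hk σ ≃ (K →+ kk σ) :=
    ⟨fun ζ => ζ.1.codRestrict (kk σ) ζ.2,
      fun g => ⟨(kk σ).subtype.toAddMonoidHom.comp g, fun a => (g a).2⟩,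
      fun ζ => rfl, fun g => rfl⟩
  have e2 := (AddMonoidHom.toZModLinearMapEquiv 2 (M := K) (M₁ := kk σ)).toEquiv
  have e3 := ((Module.finBasis (ZMod 2) K).constr (M' := kk σ) (ZMod 2)).toEquiv
  rw [Nat.card_congr (e1.trans (e2.trans e3.symm)), Nat.card_fun, Nat.card_fin, finrank_eq hK]
  rfl

end Cfsg.Agent.Lib.Helper50SzCard
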