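import Cfsg.Agent.Lib.Helper50SzCard
import Cfsg.Prelude.Def_Solvable
import Cfsg.Prelude.Def_Transfer

set_option autoImplicit false

/-!
The largest normal `2`-subgroup of the automorphism group of the model group `M`.
-/

namespace Cfsg.Agent.Lib.Helper50SzCore

open Module Cfsg.Agent.Lib.Helper50SzM Cfsg.Agent.Lib.Helper50SzKL Cfsg.Agent.Lib.Helper50SzAut
  Cfsg.Agent.Lib.Helper50SzTheta Cfsg.Agent.Lib.Helper50SzCard

variable {K : Type*} [Field K] [CharP K 2] {σ : K →+* K} {hσ : ∀ x, σ (σ x) = x}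

/-- the automorphisms acting trivially modulo the centre -/
def CC (σ : K →+* K) (hσ : ∀ x, σ (σ x) = x) : Subgroup (MulAut (M σ hσ)) where
  carrier := {β | ∀ x, (β x).a = x.a}
  mul_mem' {a b} ha hb x := by rw [MulAut.mul_apply, ha, hb]
  one_mem' x := rfl
  inv_mem' {a} ha x := by
    have := ha (a⁻¹ x)
    rw [MulAut.apply_inv_self] at this
    exact this.symm

omit [CharP K 2] in
lemma mem_CC (β : MulAut (M σ hσ)) : β ∈ CC σ hσ ↔ ∀ x, (β x).a = x.a := Iff.rfl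

instance : (CC σ hσ).Normal where
  conj_mem β hβ g x := by
    rw [MulAut.mul_apply, MulAut.mul_apply, aut_a_congr g (hβ (g⁻¹ x)), MulAut.apply_inv_self]

variable [Finite K] (hcomm : ∀ (τ : K ≃+* K) (x : K), σ (τ x) = τ (σ x))
  (htr : ∀ d, σ d = d → ∃ c, c + σ c = d)

lemma theta_one_mem (ζ : Hk σ) : theta (hσ := hσ) hcomm 1 (RingEquiv.refl K) ζ ∈ CC σ hσ := by
  intro x
  rw [theta_a]
  simp

include htr in
lemma exists_of_mem_CC (ω : K) (hω : σ ω ≠ ω) (β : MulAut (M σ hσ)) (hβ : β ∈ CC σ hσ) :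
    ∃ ζ : Hk σ, β = theta hcomm 1 (RingEquiv.refl K) ζ := by
  obtain ⟨l, τ, ζ, rfl⟩ := theta_surj hcomm htr ω hω β
  have ha : ∀ a, l.1 * τ a = a := by
    intro a
    obtain ⟨x, rfl⟩ := exists_a (hσ := hσ) htr a
    exact hβ x
  have hl : l = 1 := by
    apply Units.ext
    have := ha 1
    simpa using this
  subst hl
  have hτ : τ = RingEquiv.refl K := RingEquiv.ext (fun a => by simpa using ha a)
  subst hτ
  exact ⟨ζ, rfl⟩

include hcomm htr in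
lemma CC_formula (ω : K) (hω : σ ω ≠ ω) (β : MulAut (M σ hσ)) (hβ : β ∈ CC σ hσ) :
    ∃ ζ : Hk σ, ∀ x, (β x).c = x.c + ζ.1 x.a := by
  obtain ⟨ζ, rfl⟩ := exists_of_mem_CC hcomm htr ω hω β hβ
  refine ⟨ζ, fun x => ?_⟩
  rw [theta_c]
  simp

include hcomm htr in
theorem card_CC (ω : K) (hω : σ ω ≠ ω) : Nat.card (CC σ hσ) = Nat.card (Hk σ) := by
  symm
  apply Nat.card_congr
  apply Equiv.ofBijective (fun ζ : Hk σ => (⟨theta hcomm 1 (RingEquiv.refl K) ζ,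
    theta_one_mem hcomm ζ⟩ : CC σ hσ))
  constructor
  · intro ζ ζ' h
    exact (theta_inj hcomm htr (congrArg Subtype.val h)).2.2
  · rintro ⟨β, hβ⟩
    obtain ⟨ζ, rfl⟩ := exists_of_mem_CC hcomm htr ω hω β hβ
    exact ⟨ζ, rfl⟩

include hcomm htr in
theorem card_aut (ω : K) (hω : σ ω ≠ ω) :
    Nat.card (MulAut (M σ hσ)) = Nat.card Kˣ * (Nat.card (K ≃+* K) * Nat.card (Hk σ)) := by
  rw [← Nat.card_prod, ← Nat.card_prod]
  symm
  apply Nat.card_congr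
  apply Equiv.ofBijective (fun y : Kˣ × (K ≃+* K) × Hk σ => theta (hσ := hσ) hcomm y.1 y.2.1 y.2.2)
  constructor
  · rintro ⟨l, τ, ζ⟩ ⟨l', τ', ζ'⟩ h
    obtain ⟨h1, h2, h3⟩ := theta_inj hcomm htr h
    exact Prod.ext h1 (Prod.ext h2 h3)
  · intro β
    obtain ⟨l, τ, ζ, rfl⟩ := theta_surj hcomm htr ω hω β
    exact ⟨(l, τ, ζ), rfl⟩

include hcomm htr in
lemma CC_comm (ω : K) (hω : σ ω ≠ ω) (β β' : MulAut (M σ hσ)) (hβ : β ∈ CC σ hσ)
    (hβ' : β' ∈ CC σ hσ) : β * β' = β' * β := by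
  obtain ⟨ζ, hζ⟩ := CC_formula hcomm htr ω hω β hβ
  obtain ⟨ζ', hζ'⟩ := CC_formula hcomm htr ω hω β' hβ'
  ext x
  · rw [MulAut.mul_apply, MulAut.mul_apply, hβ, hβ', hβ', hβ]
  · rw [MulAut.mul_apply, MulAut.mul_apply, hζ, hζ', hζ', hζ, hβ, hβ']
    ring

include hcomm htr in
lemma CC_sq (ω : K) (hω : σ ω ≠ ω) (β : MulAut (M σ hσ)) (hβ : β ∈ CC σ hσ) : β ^ 2 = 1 := by
  obtain ⟨ζ, hζ⟩ := CC_formula hcomm htr ω hω β hβ
  rw [pow_two]
  ext x
  · rw [MulAut.mul_apply, hβ, hβ]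
    rfl
  · rw [MulAut.mul_apply, hζ, hζ, hβ, add_assoc, add_self', add_zero]
    rfl

omit [CharP K 2] [Finite K] in
lemma pow_a (e : MulAut (M σ hσ)) (ν : K) (he : ∀ x, (e x).a = ν * x.a) (j : ℕ) (x : M σ hσ) :
    ((e ^ j) x).a = ν ^ j * x.a := by
  induction j generalizing x with
  | zero => simp
  | succ j ih => rw [pow_succ, MulAut.mul_apply, ih, he]; ring

omit [Finite K] in
include htr in
lemma eq_one_of_two_elt (e : MulAut (M σ hσ)) (ν : K) (he : ∀ x, (e x).a = ν * x.a) (j : ℕ)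
    (hj : e ^ 2 ^ j = 1) : ν = 1 := by
  obtain ⟨x, hx⟩ := exists_a (hσ := hσ) htr 1
  have h1 := pow_a e ν he (2 ^ j) x
  rw [hj, hx, mul_one] at h1
  have h2 : ν ^ 2 ^ j = 1 := by rw [← h1]; exact hx
  have h3 : (ν - 1) ^ 2 ^ j = 0 := by rw [sub_pow_char_pow, h2, one_pow, sub_self]
  exact sub_eq_zero.1 (pow_eq_zero_iff (pow_ne_zero _ two_ne_zero) |>.1 h3)

include hcomm htr in
theorem le_CC (ω : K) (hω : σ ω ≠ ω) (D : Subgroup (MulAut (M σ hσ))) (hn : D.Normal)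
    (hD : IsPGroup 2 D) : D ≤ CC σ hσ := by
  intro d hd
  obtain ⟨l, τ, ζ, rfl⟩ := theta_surj hcomm htr ω hω d
  set d := theta (hσ := hσ) hcomm l τ ζ with hdd
  let ζ0 : Hk σ := ⟨0, fun a => map_zero σ⟩
  have hτ : ∀ μ : Kˣ, τ μ.1 = μ.1 := by
    intro μ
    set m := theta (hσ := hσ) hcomm μ (RingEquiv.refl K) ζ0 with hm
    have hmem : d * (m * d⁻¹ * m⁻¹) ∈ D := D.mul_mem hd (hn.conj_mem _ (D.inv_mem hd) m)
    have hact : ∀ x, ((d * (m * d⁻¹ * m⁻¹)) x).a = (τ μ.1 / μ.1) * x.a := by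
      intro x
      rw [MulAut.mul_apply, MulAut.mul_apply, MulAut.mul_apply]
      obtain ⟨y, hy⟩ : ∃ y, y = m⁻¹ x := ⟨_, rfl⟩
      obtain ⟨w, hw⟩ : ∃ w, w = d⁻¹ y := ⟨_, rfl⟩
      have e1 : m y = x := by rw [hy, MulAut.apply_inv_self]
      have e2 : d w = y := by rw [hw, MulAut.apply_inv_self]
      have e3 : μ.1 * y.a = x.a := by rw [← e1, hm, theta_a]; rfl
      have e4 : l.1 * τ w.a = y.a := by rw [← e2, hdd, theta_a]
      rw [← hy, ← hw, hdd, theta_a, hm, theta_a, ← e3, ← e4]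
      have := μ.ne_zero
      simp only [RingEquiv.refl_apply, map_mul]
      field_simp
    obtain ⟨j, hj⟩ := hD ⟨_, hmem⟩
    have hj' : (d * (m * d⁻¹ * m⁻¹)) ^ 2 ^ j = 1 := congrArg Subtype.val hj
    have := eq_one_of_two_elt htr _ _ hact j hj'
    rwa [div_eq_one_iff_eq μ.ne_zero] at this
  have hτ' : ∀ a, τ a = a := by
    intro a
    by_cases ha : a = 0
    · rw [ha, map_zero]
    · exact hτ (Units.mk0 a ha)
  obtain ⟨j, hj⟩ := hD ⟨d, hd⟩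
  have hj' : d ^ 2 ^ j = 1 := congrArg Subtype.val hj
  have hl := eq_one_of_two_elt htr d l.1 (fun x => by rw [hdd, theta_a, hτ']) j hj'
  intro x
  rw [hdd, theta_a, hτ', hl, one_mul]

end Cfsg.Agent.Lib.Helper50SzCore
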