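import Cfsg.Agent.Lib.Helper50SzAut

set_option autoImplicit false

/-!
Automorphisms of order three of the model group `M` which centralise the centre; the symmetric
group of degree three does not act faithfully.
-/

namespace Cfsg.Agent.Lib.Helper50SzS3

open Cfsg.Agent.Lib.Helper50SzM Cfsg.Agent.Lib.Helper50SzKL Cfsg.Agent.Lib.Helper50SzAut

variable {K : Type*} [Field K] [CharP K 2] {σ : K →+* K} {hσ : ∀ x, σ (σ x) = x}

/-- additive isometries of the norm form -/
theorem isometry_cases (hσ : ∀ x, σ (σ x) = x) (A : K → K)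
    (hA : ∀ a a', A (a + a') = A a + A a') (hN : ∀ a, A a * σ (A a) = a * σ a) :
    (∀ x, A x = A 1 * x) ∨ (∀ x, A x = A 1 * σ x) := by
  have hpol : ∀ a a', A a * σ (A a') + σ (A a * σ (A a')) = a * σ a' + σ (a * σ a') := by
    intro a a'
    have h1 := hN (a + a')
    rw [hA] at h1
    simp only [map_add, map_mul, hσ] at h1 ⊢
    linear_combination h1 - hN a - hN a'
  set u := A 1 with hu
  have hNu : u * σ u = 1 := by rw [hN 1]; simp
  have hu0 : u ≠ 0 := by
    rintro h
    rw [h, zero_mul] at hNu
    exact zero_ne_one hNu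
  have key : ∀ x, A x = u * x ∨ A x = u * σ x := by
    intro x
    have h1 := hpol x 1
    rw [← hu, map_one, mul_one] at h1
    have h2 := hN x
    have h3 : (A x * σ u + x) * (A x * σ u + σ x) = 0 := by
      have e1 : (A x * σ u + x) * (A x * σ u + σ x) =
          (A x * σ u) ^ 2 + (A x * σ u) * (x + σ x) + x * σ x := by ring
      rw [e1, ← h1, ← h2, map_mul, hσ]
      have e2 := add_self' ((A x * σ u) ^ 2)
      have e3 := add_self' (A x * σ (A x))
      linear_combination e2 + (A x * σ (A x)) * hNu + e3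
    have h4 : A x = u * (A x * σ u) := by linear_combination -(A x) * hNu
    rcases mul_eq_zero.1 h3 with h5 | h5
    · left
      have e : A x * σ u = x := by
        have := add_self' x
        linear_combination h5 - this
      rw [e] at h4; exact h4
    · right
      have e : A x * σ u = σ x := by
        have := add_self' (σ x)
        linear_combination h5 - this
      rw [e] at h4; exact h4
  by_contra hcon
  push Not at hcon
  obtain ⟨⟨x₁, h1⟩, ⟨x₂, h2⟩⟩ := hcon
  have h1' := (key x₁).resolve_left h1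
  have h2' := (key x₂).resolve_right h2
  rcases key (x₁ + x₂) with h3 | h3
  · rw [hA, h1', h2'] at h3
    apply h1
    rw [h1']
    linear_combination h3
  · rw [hA, h1', h2', map_add] at h3
    apply h2
    rw [h2']
    linear_combination h3

variable (htr : ∀ d, σ d = d → ∃ c, c + σ c = d)

include htr in
/-- automorphisms of order three centralising the centre are trivial -/
theorem aut_three (hu : ∀ u : K, u * σ u = 1 → u ^ 3 = 1 → u = 1) (β : M σ hσ ≃* M σ hσ)
    (h3 : ∀ x, β (β (β x)) = x) (hZ : ∀ z : M σ hσ, z.a = 0 → β z = z) (x : M σ hσ) :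
    β x = x := by
  have hB : ∀ d, σ d = d → actB β d = d := by
    intro d hd
    have := actB_eq β (zz d hd) rfl
    rw [hZ _ rfl] at this
    exact this
  have hN : ∀ a, actA htr β a * σ (actA htr β a) = a * σ a := by
    intro a
    rw [act_norm, hB _ (norm_fix hσ a)]
  have hA3 : ∀ a, actA htr β (actA htr β (actA htr β a)) = a := by
    intro a
    have e : actA htr β a = (β (sec htr a)).a := rfl
    rw [e, actA_eq, actA_eq, h3, sec_a]
  have hNu := hN 1
  rw [map_one, mul_one] at hNu
  have hid : ∀ a, actA htr β a = a := by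
    rcases isometry_cases hσ (actA htr β) (actA_add htr β) hN with h | h
    · have e := hA3 1
      rw [h (actA htr β (actA htr β 1)), h (actA htr β 1)] at e
      have e1 : actA htr β 1 = 1 := hu _ hNu (by linear_combination e)
      intro a
      rw [h a, e1, one_mul]
    · have h2 : ∀ a, actA htr β (actA htr β a) = a := by
        intro a
        rw [h (actA htr β a), h a, map_mul, hσ]
        linear_combination a * hNu
      intro a
      have := hA3 a
      rwa [h2] at this
  have ha : ∀ y : M σ hσ, (β y).a = y.a := fun y => by rw [← actA_eq htr, hid]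
  have h2 : ∀ y : M σ hσ, β (β y) = y := by
    intro y
    obtain ⟨ζ, hζ⟩ : ∃ ζ, ζ = y⁻¹ * β y := ⟨_, rfl⟩
    have e0 : ζ.a = 0 := by rw [hζ, mul_a, inv_a, ha]; ring
    have e1 : β y = y * ζ := by rw [hζ]; group
    rw [e1, map_mul, hZ _ e0, e1, mul_assoc, (Helper50SzM.sq_eq_one_iff _).2 e0, mul_one]
  have := h3 x
  rwa [h2] at this

include htr in
/-- no faithful action of the symmetric group of degree three -/
theorem no_S3 [Finite K] (hu : ∀ u : K, u * σ u = 1 → u ^ 3 = 1 → u = 1)
    (f : Equiv.Perm (Fin 3) →* MulAut (M σ hσ)) (hf : Function.Injective f) : False := by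
  have t1 : (Equiv.swap (0 : Fin 3) 1) * (Equiv.swap (0 : Fin 3) 1) = 1 := by decide
  have t2 : (Equiv.swap (1 : Fin 3) 2) * (Equiv.swap (1 : Fin 3) 2) = 1 := by decide
  have t3 : (Equiv.swap (0 : Fin 3) 1 * Equiv.swap (1 : Fin 3) 2) *
      ((Equiv.swap (0 : Fin 3) 1 * Equiv.swap (1 : Fin 3) 2) *
      (Equiv.swap (0 : Fin 3) 1 * Equiv.swap (1 : Fin 3) 2)) = 1 := by decide
  have t4 : (Equiv.swap (0 : Fin 3) 1 * Equiv.swap (1 : Fin 3) 2) ≠ 1 := by decide
  have inv : ∀ τ : Equiv.Perm (Fin 3), τ * τ = 1 → ∀ z : M σ hσ, z.a = 0 → f τ z = z := by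
    intro τ hτ z hz
    apply aut_center htr (f τ) _ z hz
    intro x
    have : f τ (f τ x) = (f τ * f τ) x := rfl
    rw [this, ← map_mul, hτ, map_one]
    rfl
  apply t4
  apply hf
  rw [map_one]
  ext1 x
  apply aut_three htr hu (f (Equiv.swap (0 : Fin 3) 1 * Equiv.swap (1 : Fin 3) 2))
  · intro y
    set ρ := Equiv.swap (0 : Fin 3) 1 * Equiv.swap (1 : Fin 3) 2
    have : f ρ (f ρ (f ρ y)) = (f ρ * (f ρ * f ρ)) y := rfl
    rw [this, ← map_mul, ← map_mul, t3, map_one]
    rfl
  · intro z hz
    rw [map_mul]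
    show f _ (f _ z) = z
    rw [inv _ t2 z hz, inv _ t1 z hz]

end Cfsg.Agent.Lib.Helper50SzS3
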