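import Cfsg.Agent.Lib.Helper50SzKL

set_option autoImplicit false

/-!
Additive semi-similarities of the norm form of a quadratic extension of finite fields of
characteristic two are of the form `a ↦ l * τ a` with `τ` a field endomorphism.
-/

namespace Cfsg.Agent.Lib.Helper50SzSemi

open Cfsg.Agent.Lib.Helper50SzM Cfsg.Agent.Lib.Helper50SzKL

variable {K : Type*} [Field K] {σ : K →+* K} [CharP K 2]

theorem semilinear [Finite K] (hσ : ∀ x, σ (σ x) = x) (ω : K) (hω : σ ω ≠ ω)
    (A B : K → K) (hA : ∀ a a', A (a + a') = A a + A a') (hAinj : ∀ a, A a = 0 → a = 0)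
    (hB : ∀ d d', σ d = d → σ d' = d' → B (d + d') = B d + B d')
    (hBinj : ∀ d, σ d = d → B d = 0 → d = 0)
    (hN : ∀ a, A a * σ (A a) = B (a * σ a)) :
    ∃ τ : K →+* K, A 1 ≠ 0 ∧ (∀ a, A a = A 1 * τ a) ∧
      ∀ d, σ d = d → B d = A 1 * σ (A 1) * τ d := by
  have h2 : (2 : K) = 0 := CharTwo.two_eq_zero
  have hB0 : B 0 = 0 := by
    have := hB 0 0 (map_zero σ) (map_zero σ)
    rw [add_zero] at this
    linear_combination -this
  have hA0 : A 0 = 0 := by
    have := hA 0 0
    rw [add_zero] at this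
    linear_combination -this
  have hpol : ∀ a a', A a * σ (A a') + σ (A a * σ (A a')) = B (a * σ a' + σ (a * σ a')) := by
    intro a a'
    have h1 := hN (a + a')
    have e1 : (a + a') * σ (a + a') = (a * σ a + a' * σ a') + (a * σ a' + σ (a * σ a')) := by
      rw [map_add, map_mul, hσ]; ring
    rw [e1, hB _ _ (by rw [map_add, norm_fix hσ, norm_fix hσ]) (tr_fix hσ _),
      hB _ _ (norm_fix hσ _) (norm_fix hσ _), ← hN a, ← hN a', hA, map_add] at h1
    rw [map_mul, hσ]
    linear_combination h1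
  have line : ∀ (b : K), b ≠ 0 → ∀ c, σ c = c →
      σ (A (c * b) * σ (A b) / (A b * σ (A b))) = A (c * b) * σ (A b) / (A b * σ (A b)) ∧
      A (c * b) = (A (c * b) * σ (A b) / (A b * σ (A b))) * A b := by
    intro b hb0 c hc
    have hAb : A b ≠ 0 := fun h => hb0 (hAinj b h)
    have hσb : σ (A b) ≠ 0 := fun h => hAb (by have := congrArg σ h; rwa [hσ, map_zero] at this)
    constructor
    · have h1 := hpol (c * b) b
      have h2 : c * b * σ b + σ (c * b * σ b) = 0 := by
        rw [tr_zero_iff, mul_assoc, map_mul, hc, norm_fix hσ]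
      rw [h2, hB0, tr_zero_iff] at h1
      rw [map_div₀, h1, norm_fix hσ]
    · field_simp
  have hω0 : ω ≠ 0 := by
    rintro rfl
    exact hω (map_zero σ)
  set l := A 1 with hl
  have hl0 : l ≠ 0 := fun h => one_ne_zero (hAinj 1 h)
  set e := l * σ l with he
  have he0 : e ≠ 0 := fun h => hl0 (norm_zero hσ h)
  have hef : σ e = e := norm_fix hσ l
  set t := ω + σ ω with ht
  have htf : σ t = t := tr_fix hσ ω
  have ht0 : t ≠ 0 := fun h => hω ((tr_zero_iff _).1 h)
  have hBt0 : B t ≠ 0 := fun h => ht0 (hBinj t htf h)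
  set φ : K → K := fun c => A (c * 1) * σ (A 1) / (A 1 * σ (A 1)) with hφ
  set φ' : K → K := fun c => A (c * ω) * σ (A ω) / (A ω * σ (A ω)) with hφ'
  have P1 : ∀ c, σ c = c → σ (φ c) = φ c := fun c hc => (line 1 one_ne_zero c hc).1
  have P2 : ∀ c, σ c = c → A c = φ c * l := fun c hc => by
    have := (line 1 one_ne_zero c hc).2
    rw [mul_one] at this
    show A c = A (c * 1) * σ (A 1) / (A 1 * σ (A 1)) * A 1
    rw [mul_one]; exact this
  have P1' : ∀ c, σ c = c → σ (φ' c) = φ' c := fun c hc => (line ω hω0 c hc).1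
  have P2' : ∀ c, σ c = c → A (c * ω) = φ' c * A ω := fun c hc => (line ω hω0 c hc).2
  have hAω : A ω ≠ 0 := fun h => hω0 (hAinj ω h)
  have ht' : A ω * σ l + σ (A ω * σ l) = B t := by
    have := hpol ω 1
    rwa [map_one, mul_one] at this
  have P3 : ∀ c c', σ c = c → σ c' = c' → B (c * c' * t) = φ c * φ' c' * B t := by
    intro c c' hc hc'
    have h1 := hpol (c' * ω) c
    rw [P2 c hc, P2' c' hc'] at h1
    have e1 : c' * ω * σ c + σ (c' * ω * σ c) = c * c' * t := by
      rw [ht]
      simp only [map_mul, hc, hc']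
      ring
    have e2 : φ' c' * A ω * σ (φ c * l) + σ (φ' c' * A ω * σ (φ c * l)) = φ c * φ' c' * B t := by
      rw [← ht']
      simp only [map_mul, hσ, P1 c hc, P1' c' hc']
      ring
    rw [e1, e2] at h1
    exact h1.symm
  have P4 : φ 1 = 1 := by
    show A (1 * 1) * σ (A 1) / (A 1 * σ (A 1)) = 1
    rw [one_mul, div_self he0]
  have P4' : φ' 1 = 1 := by
    show A (1 * ω) * σ (A ω) / (A ω * σ (A ω)) = 1
    rw [one_mul, div_self (fun h => hAω (norm_zero hσ h))]
  have P5 : ∀ c, σ c = c → B (c * t) = φ c * B t := by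
    intro c hc
    have := P3 c 1 hc (map_one σ)
    rwa [mul_one, P4', mul_one] at this
  have P5' : ∀ c, σ c = c → φ' c = φ c := by
    intro c hc
    have h1 := P3 1 c (map_one σ) hc
    rw [one_mul, P4, one_mul, P5 c hc] at h1
    exact (mul_right_cancel₀ hBt0 h1).symm
  have P6 : ∀ c c', σ c = c → σ c' = c' → φ (c * c') = φ c * φ c' := by
    intro c c' hc hc'
    have h1 := P3 c c' hc hc'
    rw [P5 (c * c') (by rw [map_mul, hc, hc']), P5' c' hc'] at h1
    exact mul_right_cancel₀ hBt0 h1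
  have P7 : ∀ c c', φ (c + c') = φ c + φ c' := by
    intro c c'
    show A ((c + c') * 1) * σ (A 1) / (A 1 * σ (A 1)) =
      A (c * 1) * σ (A 1) / (A 1 * σ (A 1)) + A (c' * 1) * σ (A 1) / (A 1 * σ (A 1))
    rw [add_mul, hA]; ring
  have P9 : ∀ x, σ x = x → B x = e * φ x := by
    intro x hx
    obtain ⟨c, hc⟩ := exists_sqrt x
    have hcf : σ c = c := by
      apply sq_inj
      rw [← map_pow, hc, hx]
    have h1 := hN c
    rw [P2 c hcf, hcf, ← pow_two, hc] at h1
    rw [← h1, map_mul, P1 c hcf, ← hc, pow_two, P6 c c hcf hcf, he]; ring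
  -- the candidate
  have hτφ : ∀ c, σ c = c → A c / l = φ c := by
    intro c hc
    rw [P2 c hc]; field_simp
  set ω' := A ω / l with hω'
  have hdec : ∀ x, ∃ c c', σ c = c ∧ σ c' = c' ∧ x = c + c' * ω := by
    intro x
    have h1 : σ ((x + σ x) / t) = (x + σ x) / t := by rw [map_div₀, tr_fix hσ, htf]
    refine ⟨x + (x + σ x) / t * ω, (x + σ x) / t, ?_, h1, ?_⟩
    · rw [map_add, map_mul, h1]
      have e1 : (x + σ x) / t * t = x + σ x := div_mul_cancel₀ _ ht0
      linear_combination e1 - ((x + σ x) / t) * ht + (σ x - (x + σ x) / t * ω) * h2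
    · linear_combination (-((x + σ x) / t * ω)) * h2
  have hval : ∀ c c', σ c = c → σ c' = c' → A (c + c' * ω) / l = φ c + φ c' * ω' := by
    intro c c' hc hc'
    rw [hA, add_div, hτφ c hc, P2' c' hc', P5' c' hc', hω']; ring
  have hTf : σ (ω * σ ω) = ω * σ ω := norm_fix hσ ω
  have hωsq : ω * ω = ω * σ ω + t * ω := by
    linear_combination (-ω) * ht - (ω * σ ω) * h2
  have hσl : σ l ≠ 0 := fun h => hl0 (by have := congrArg σ h; rwa [hσ, map_zero] at this)
  have hNω' : ω' * σ ω' = φ (ω * σ ω) := by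
    have h1 := hN ω
    rw [P9 _ hTf] at h1
    rw [hω', map_div₀]
    field_simp
    rw [he] at h1
    linear_combination h1
  have hTω' : ω' + σ ω' = φ t := by
    have h1 := ht'
    rw [P9 _ htf, map_mul, hσ] at h1
    rw [hω', map_div₀]
    field_simp
    rw [he] at h1
    linear_combination h1
  have hω'sq : ω' * ω' = φ (ω * σ ω) + φ t * ω' := by
    rw [← hNω', ← hTω']
    linear_combination (-(ω' * σ ω')) * h2
  let τ : K →+* K :=
    { toFun := fun x => A x / l
      map_one' := div_self hl0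
      map_zero' := by rw [hA0, zero_div]
      map_add' := fun x y => by rw [hA, add_div]
      map_mul' := by
        intro x y
        obtain ⟨c, c', hc, hc', rfl⟩ := hdec x
        obtain ⟨d, d', hd, hd', rfl⟩ := hdec y
        have e1 : (c + c' * ω) * (d + d' * ω) =
            (c * d + c' * d' * (ω * σ ω)) + (c * d' + c' * d + c' * d' * t) * ω := by
          linear_combination (c' * d') * hωsq
        have f1 : σ (c * d) = c * d := by rw [map_mul, hc, hd]
        have f2 : σ (c' * d') = c' * d' := by rw [map_mul, hc', hd']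
        have f3 : σ (c * d') = c * d' := by rw [map_mul, hc, hd']
        have f4 : σ (c' * d) = c' * d := by rw [map_mul, hc', hd]
        have f5 : σ (c' * d' * (ω * σ ω)) = c' * d' * (ω * σ ω) := by rw [map_mul, f2, hTf]
        have f6 : σ (c' * d' * t) = c' * d' * t := by rw [map_mul, f2, htf]
        rw [e1, hval _ _ (by rw [map_add, f1, f5]) (by rw [map_add, map_add, f3, f4, f6]),
          hval c c' hc hc', hval d d' hd hd', P7, P7, P7, P6 _ _ hc hd, P6 _ _ f2 hTf,
          P6 _ _ hc' hd', P6 _ _ hc hd', P6 _ _ hc' hd, P6 _ _ f2 htf, P6 _ _ hc' hd']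
        linear_combination -(φ c' * φ d') * hω'sq }
  refine ⟨τ, hl0, fun a => ?_, fun d hd => ?_⟩
  · show A a = l * (A a / l)
    field_simp
  · show B d = e * (A d / l)
    rw [P9 d hd, hτφ d hd]

end Cfsg.Agent.Lib.Helper50SzSemi
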