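import Cfsg.Agent.Lib.Helper50SzSemi
import Cfsg.Agent.Lib.Helper50SzAut

set_option autoImplicit false

/-!
Parametrisation of the automorphism group of the model group `M`.
-/

namespace Cfsg.Agent.Lib.Helper50SzTheta

open Cfsg.Agent.Lib.Helper50SzM Cfsg.Agent.Lib.Helper50SzKL Cfsg.Agent.Lib.Helper50SzAut
  Cfsg.Agent.Lib.Helper50SzSemi

variable {K : Type*} [Field K] [CharP K 2] {σ : K →+* K} {hσ : ∀ x, σ (σ x) = x}

omit [CharP K 2] in
lemma finite_M [Finite K] : Finite (M σ hσ) :=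
  Finite.of_injective (fun x : M σ hσ => (x.a, x.c)) (by
    intro x y h
    ext
    · exact congrArg Prod.fst h
    · exact congrArg Prod.snd h)

/-- additive maps into the fixed field -/
def Hk (σ : K →+* K) : Type _ := {ζ : K →+ K // ∀ a, σ (ζ a) = ζ a}

variable (hcomm : ∀ (τ : K ≃+* K) (x : K), σ (τ x) = τ (σ x))

/-- the standard automorphisms, as homomorphisms -/
def thetaHom (l : Kˣ) (τ : K ≃+* K) (ζ : Hk σ) : M σ hσ →* M σ hσ where
  toFun x := ⟨l.1 * τ x.a, l.1 * σ l.1 * τ x.c + ζ.1 x.a, by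
    have h2 : (2 : K) = 0 := CharTwo.two_eq_zero
    have hx := congrArg τ x.h
    simp only [map_add, map_neg, map_mul] at hx
    simp only [map_add, map_mul, hσ, hcomm, ζ.2]
    linear_combination (l.1 * σ l.1) * hx + (ζ.1 x.a) * h2⟩
  map_one' := by
    ext <;> simp
  map_mul' x y := by
    ext
    · simp only [mul_a, map_add]; ring
    · simp only [mul_a, mul_c, map_add, map_sub, map_mul, hcomm]; ring

lemma thetaHom_injective (l : Kˣ) (τ : K ≃+* K) (ζ : Hk σ) :
    Function.Injective (thetaHom (hσ := hσ) hcomm l τ ζ) := by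
  intro x y h
  have h1 : l.1 * τ x.a = l.1 * τ y.a := congrArg M.a h
  have h2 : l.1 * σ l.1 * τ x.c + ζ.1 x.a = l.1 * σ l.1 * τ y.c + ζ.1 y.a := congrArg M.c h
  have ha : x.a = y.a := τ.injective (mul_left_cancel₀ l.ne_zero h1)
  have hl : l.1 * σ l.1 ≠ 0 := fun h0 => l.ne_zero (norm_zero hσ h0)
  rw [ha] at h2
  ext
  · exact ha
  · exact τ.injective (mul_left_cancel₀ hl (add_right_cancel h2))

/-- the standard automorphisms -/
noncomputable def theta [Finite K] (l : Kˣ) (τ : K ≃+* K) (ζ : Hk σ) : MulAut (M σ hσ) :=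
  haveI := finite_M (σ := σ) (hσ := hσ)
  MulEquiv.ofBijective (thetaHom hcomm l τ ζ)
    (Finite.injective_iff_bijective.1 (thetaHom_injective hcomm l τ ζ))

lemma theta_a [Finite K] (l : Kˣ) (τ : K ≃+* K) (ζ : Hk σ) (x : M σ hσ) :
    (theta hcomm l τ ζ x).a = l.1 * τ x.a := rfl

lemma theta_c [Finite K] (l : Kˣ) (τ : K ≃+* K) (ζ : Hk σ) (x : M σ hσ) :
    (theta hcomm l τ ζ x).c = l.1 * σ l.1 * τ x.c + ζ.1 x.a := rfl

variable (htr : ∀ d, σ d = d → ∃ c, c + σ c = d)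

include htr in
lemma theta_inj [Finite K] {l l' : Kˣ} {τ τ' : K ≃+* K} {ζ ζ' : Hk σ}
    (h : theta (hσ := hσ) hcomm l τ ζ = theta hcomm l' τ' ζ') : l = l' ∧ τ = τ' ∧ ζ = ζ' := by
  have ha : ∀ a, l.1 * τ a = l'.1 * τ' a := by
    intro a
    obtain ⟨x, rfl⟩ := exists_a (hσ := hσ) htr a
    exact congrArg M.a (DFunLike.congr_fun h x)
  have hl : l = l' := by
    apply Units.ext
    have := ha 1
    simpa using this
  subst hl
  have hτ : τ = τ' := RingEquiv.ext (fun a => mul_left_cancel₀ l.ne_zero (ha a))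
  subst hτ
  refine ⟨rfl, rfl, ?_⟩
  apply Subtype.ext
  ext a
  obtain ⟨x, rfl⟩ := exists_a (hσ := hσ) htr a
  have := congrArg M.c (DFunLike.congr_fun h x)
  rw [theta_c, theta_c] at this
  exact add_left_cancel this

include htr in
theorem theta_surj [Finite K] (ω : K) (hω : σ ω ≠ ω) (β : MulAut (M σ hσ)) :
    ∃ (l : Kˣ) (τ : K ≃+* K) (ζ : Hk σ), β = theta hcomm l τ ζ := by
  have h2 : (2 : K) = 0 := CharTwo.two_eq_zero
  have hAinj : ∀ a, actA htr β a = 0 → a = 0 := by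
    intro a ha
    have h1 : (β (sec htr a)).a = 0 := ha
    rw [← Helper50SzM.sq_eq_one_iff, ← map_mul] at h1
    have h3 : sec (hσ := hσ) htr a * sec htr a = 1 := β.injective (h1.trans (map_one β).symm)
    rw [Helper50SzM.sq_eq_one_iff, sec_a] at h3
    exact h3
  have hBinj : ∀ d, σ d = d → actB β d = 0 → d = 0 := by
    intro d hd h0
    have h1 := actB_eq β (zz d hd) rfl
    rw [zz_c, h0] at h1
    have h3 : β (zz d hd) = 1 := (eq_one_iff _).2 ⟨aut_a_zero β rfl, h1.symm⟩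
    have h4 : zz (hσ := hσ) d hd = 1 := β.injective (h3.trans (map_one β).symm)
    exact congrArg M.c h4
  obtain ⟨τ₀, hl0, hAτ, hBτ⟩ := semilinear hσ ω hω (actA htr β) (actB β) (actA_add htr β) hAinj
    (actB_add β) hBinj (act_norm htr β)
  set l := actA htr β 1 with hl
  let τ : K ≃+* K := RingEquiv.ofBijective τ₀
    ⟨τ₀.injective, Finite.surjective_of_injective τ₀.injective⟩
  have hτ : ∀ x, τ x = τ₀ x := fun x => rfl
  have hcomm' : ∀ x, σ (τ₀ x) = τ₀ (σ x) := fun x => hcomm τ x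
  have Z1 : ∀ x : M σ hσ, (β x).c = l * σ l * τ₀ x.c +
      ((β (sec htr x.a)).c - l * σ l * τ₀ (sec (hσ := hσ) htr x.a).c) := by
    intro x
    obtain ⟨z, hz⟩ : ∃ z, z = (sec htr x.a)⁻¹ * x := ⟨_, rfl⟩
    have hza : z.a = 0 := by rw [hz, mul_a, inv_a, sec_a]; ring
    have hx : x = sec htr x.a * z := by rw [hz]; group
    have e1 : x.c = (sec (hσ := hσ) htr x.a).c + z.c := by
      conv_lhs => rw [hx]
      rw [mul_c, hza]; ring
    have e2 : (β x).c = (β (sec htr x.a)).c + (β z).c := by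
      conv_lhs => rw [hx]
      rw [map_mul, mul_c, aut_a_zero β hza]; ring
    rw [e2, ← actB_eq β z hza, hBτ _ (fix_of_a z hza), e1, map_add]
    ring
  have Z2 : ∀ a a', ((β (sec htr (a + a'))).c - l * σ l * τ₀ (sec (hσ := hσ) htr (a + a')).c) =
      ((β (sec htr a)).c - l * σ l * τ₀ (sec (hσ := hσ) htr a).c) +
      ((β (sec htr a')).c - l * σ l * τ₀ (sec (hσ := hσ) htr a').c) := by
    intro a a'
    have h1 := Z1 (sec htr a * sec htr a')
    rw [map_mul, mul_c, mul_c, mul_a, sec_a, sec_a, ← actA_eq htr β, ← actA_eq htr β, sec_a, sec_a,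
      hAτ a, hAτ a'] at h1
    simp only [map_add, map_sub, map_mul, hcomm'] at h1
    linear_combination -h1
  have Z3 : ∀ a, σ ((β (sec htr a)).c - l * σ l * τ₀ (sec (hσ := hσ) htr a).c) =
      ((β (sec htr a)).c - l * σ l * τ₀ (sec (hσ := hσ) htr a).c) := by
    intro a
    have h1 := (β (sec htr a)).h
    have h3 := congrArg τ₀ (sec (hσ := hσ) htr a).h
    rw [← actA_eq htr β, sec_a, hAτ a] at h1
    rw [sec_a] at h3
    simp only [map_add, map_neg, map_mul, hcomm'] at h1 h3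
    simp only [map_sub, map_mul, hσ, hcomm']
    linear_combination h1 - (l * σ l) * h3 - ((β (sec htr a)).c - l * σ l * τ₀ (sec htr a).c) * h2
  let ζ₀ : K →+ K := AddMonoidHom.mk'
    (fun a => (β (sec htr a)).c - l * σ l * τ₀ (sec (hσ := hσ) htr a).c) Z2
  have Z3' : ∀ a, σ (ζ₀ a) = ζ₀ a := Z3
  refine ⟨Units.mk0 l hl0, τ, ⟨ζ₀, Z3'⟩, ?_⟩
  ext x
  · show (β x).a = l * τ₀ x.a
    rw [← actA_eq htr β, hAτ]
  · exact Z1 x

end Cfsg.Agent.Lib.Helper50SzTheta
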