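import Mathlib

set_option autoImplicit false

namespace Cfsg.Agent.Lib.Helper50TI

/-- two `p`-subgroups sharing a nontrivial element generate a `p`-group
(for finite groups: the Sylow `p`-subgroups are TI) -/
def TI (p : ℕ) (G : Type*) [Group G] : Prop :=
  ∀ A B : Subgroup G, IsPGroup p A → IsPGroup p B → ∀ x ∈ A, x ∈ B → x ≠ 1 →
    IsPGroup p (A ⊔ B : Subgroup G)

theorem TI.of_injective {p : ℕ} {G H : Type*} [Group G] [Group H] (f : H →* G)
    (hf : Function.Injective f) (h : TI p G) : TI p H := by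
  intro A B hA hB x hxA hxB hx1
  have h1 : IsPGroup p (A.map f ⊔ B.map f : Subgroup G) := by
    refine h _ _ (hA.map f) (hB.map f) (f x) (Subgroup.mem_map_of_mem f hxA)
      (Subgroup.mem_map_of_mem f hxB) ?_
    intro h1
    exact hx1 (hf (by rw [h1, map_one]))
  rw [← Subgroup.map_sup] at h1
  exact h1.of_injective (f.subgroupMap (A ⊔ B)) (by
    intro a b hab
    apply Subtype.ext
    apply hf
    exact congrArg Subtype.val hab)

theorem exists_lift {p : ℕ} [Fact p.Prime] {G H : Type*} [Group G] [Finite G] [Group H]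
    (f : G →* H) (hf : Function.Surjective f) (A : Subgroup H) (hA : IsPGroup p A)
    (R : Subgroup G) (hR : IsPGroup p R) (hRA : R ≤ A.comap f) :
    ∃ A₁ : Subgroup G, IsPGroup p A₁ ∧ R ≤ A₁ ∧ A₁.map f = A := by
  let f' : A.comap f →* A := f.subgroupComap A
  have hf' : Function.Surjective f' := f.subgroupComap_surjective_of_surjective A hf
  have hR' : IsPGroup p (R.subgroupOf (A.comap f)) := hR.comap_subtype
  obtain ⟨S, hS⟩ := hR'.exists_le_sylow
  have htop : (⊤ : Subgroup A) = (S.mapSurjective hf' : Subgroup A) := by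
    apply (S.mapSurjective hf').is_maximal' _ le_top
    exact hA.of_injective (⊤ : Subgroup A).subtype (Subgroup.subtype_injective _)
  refine ⟨(S : Subgroup (A.comap f)).map (A.comap f).subtype, S.2.map _, ?_, ?_⟩
  · intro r hr
    exact ⟨⟨r, hRA hr⟩, hS (Subgroup.mem_subgroupOf.mpr hr), rfl⟩
  · apply le_antisymm
    · rintro _ ⟨_, ⟨s, _, rfl⟩, rfl⟩
      exact s.2
    · intro a ha
      have ha' : (⟨a, ha⟩ : A) ∈ (S.mapSurjective hf' : Subgroup A) := htop ▸ Subgroup.mem_top _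
      rw [Sylow.coe_mapSurjective] at ha'
      obtain ⟨s, hs, hsa⟩ := ha'
      exact ⟨s.1, ⟨s, hs, rfl⟩, congrArg Subtype.val hsa⟩

theorem TI.of_surjective {p : ℕ} [Fact p.Prime] {G H : Type*} [Group G] [Finite G] [Group H]
    (f : G →* H) (hf : Function.Surjective f) (h : TI p G) : TI p H := by
  intro A B hA hB x hxA hxB hx1
  have hAB : IsPGroup p (A ⊓ B : Subgroup H) := hA.to_le inf_le_left
  obtain ⟨R, hR, -, hRm⟩ := exists_lift f hf (A ⊓ B) hAB ⊥ (IsPGroup.of_bot) bot_le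
  have hRA : R ≤ A.comap f := by
    intro r hr
    have : f r ∈ R.map f := Subgroup.mem_map_of_mem f hr
    rw [hRm] at this
    exact this.1
  have hRB : R ≤ B.comap f := by
    intro r hr
    have : f r ∈ R.map f := Subgroup.mem_map_of_mem f hr
    rw [hRm] at this
    exact this.2
  obtain ⟨A₁, hA₁, hRA₁, hA₁m⟩ := exists_lift f hf A hA R hR hRA
  obtain ⟨B₁, hB₁, hRB₁, hB₁m⟩ := exists_lift f hf B hB R hR hRB
  have hx : x ∈ R.map f := by rw [hRm]; exact ⟨hxA, hxB⟩
  obtain ⟨r, hr, hrx⟩ := hx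
  have hr1 : r ≠ 1 := by
    rintro rfl
    exact hx1 (by rw [← hrx, map_one])
  have h1 := h A₁ B₁ hA₁ hB₁ r (hRA₁ hr) (hRB₁ hr) hr1
  have h2 := h1.map f
  rwa [Subgroup.map_sup, hA₁m, hB₁m] at h2

end Cfsg.Agent.Lib.Helper50TI
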