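import Cfsg.Agent.Lib.Helper50TI
import Cfsg.Prelude.Def_PLocal

set_option autoImplicit false

namespace Cfsg.Agent.Lib.Helper50TIQd
open Cfsg.Agent.Lib.Helper50TI

/-- upper unitriangular matrices -/
def IsUT {p : ℕ} (M : Matrix (Fin 3) (Fin 3) (ZMod p)) : Prop :=
  M 0 0 = 1 ∧ M 1 1 = 1 ∧ M 2 2 = 1 ∧ M 1 0 = 0 ∧ M 2 0 = 0 ∧ M 2 1 = 0

def UT (p : ℕ) : Subgroup (Matrix.SpecialLinearGroup (Fin 3) (ZMod p)) where
  carrier := {M | IsUT M.1}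
  mul_mem' := by
    rintro a b ⟨a1, a2, a3, a4, a5, a6⟩ ⟨b1, b2, b3, b4, b5, b6⟩
    refine ⟨?_, ?_, ?_, ?_, ?_, ?_⟩ <;>
      simp [Matrix.mul_apply, Fin.sum_univ_three, a1, a2, a3, a4, a5, a6, b1, b2, b3, b4, b5, b6]
  one_mem' := by
    refine ⟨?_, ?_, ?_, ?_, ?_, ?_⟩ <;> simp
  inv_mem' := by
    rintro a ⟨a1, a2, a3, a4, a5, a6⟩
    refine ⟨?_, ?_, ?_, ?_, ?_, ?_⟩ <;>
      simp [Matrix.SpecialLinearGroup.coe_inv, Matrix.adjugate_fin_three, a1, a2, a3, a4, a5, a6]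

theorem isPGroup_UT (p : ℕ) [Fact p.Prime] : IsPGroup p (UT p) := by
  rintro ⟨⟨M, hdet⟩, a1, a2, a3, a4, a5, a6⟩
  refine ⟨2, ?_⟩
  apply Subtype.ext
  apply Subtype.ext
  show M ^ p ^ 2 = 1
  simp only at a1 a2 a3 a4 a5 a6
  set N := M - 1 with hN
  have hM : M = 1 + N := by rw [hN]; abel
  have hN3 : N ^ 3 = 0 := by
    have e : ∀ i j, N i j = M i j - (1 : Matrix (Fin 3) (Fin 3) (ZMod p)) i j := fun i j => rfl
    rw [pow_succ, pow_two]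
    ext i j
    fin_cases i <;> fin_cases j <;>
      simp [Matrix.mul_apply, Fin.sum_univ_three, e, a1, a2, a3, a4, a5, a6]
  have hp : 3 ≤ p ^ 2 := by
    have : 2 ≤ p := (Fact.out : p.Prime).two_le
    nlinarith
  rw [hM, add_pow_char_pow_of_commute p 2 (Commute.one_left N), one_pow,
    pow_eq_zero_of_le hp hN3, add_zero]

theorem not_ti_qd (p : ℕ) [Fact p.Prime] (hp : p ≠ 2) : ¬ TI p ↥(Cfsg.qd p) := by
  intro h
  have hone : (1 : ZMod p) ≠ 0 := one_ne_zero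
  let X : Matrix (Fin 3) (Fin 3) (ZMod p) := !![1, 1, 0; 0, 1, 0; 0, 0, 1]
  let Y : Matrix (Fin 3) (Fin 3) (ZMod p) := !![1, 0, 1; 0, 1, 0; 0, 0, 1]
  let Y' : Matrix (Fin 3) (Fin 3) (ZMod p) := !![1, 0, 0; 0, 1, 1; 0, 0, 1]
  let W : Matrix (Fin 3) (Fin 3) (ZMod p) := !![0, 1, 0; -1, 0, 0; 0, 0, 1]
  have hX : X.det = 1 := by simp [X, Matrix.det_fin_three]
  have hY : Y.det = 1 := by simp [Y, Matrix.det_fin_three]
  have hY' : Y'.det = 1 := by simp [Y', Matrix.det_fin_three]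
  have hW : W.det = 1 := by simp [W, Matrix.det_fin_three]
  let x : Matrix.SpecialLinearGroup (Fin 3) (ZMod p) := ⟨X, hX⟩
  let y : Matrix.SpecialLinearGroup (Fin 3) (ZMod p) := ⟨Y, hY⟩
  let y' : Matrix.SpecialLinearGroup (Fin 3) (ZMod p) := ⟨Y', hY'⟩
  let w : Matrix.SpecialLinearGroup (Fin 3) (ZMod p) := ⟨W, hW⟩
  have hxq : x ∈ Cfsg.qd p := Subgroup.subset_closure (by
    refine ⟨?_, ?_, ?_⟩ <;> simp [x, X])
  have hyq : y ∈ Cfsg.qd p := Subgroup.subset_closure (by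
    refine ⟨?_, ?_, ?_⟩ <;> simp [y, Y])
  have hyq' : y' ∈ Cfsg.qd p := Subgroup.subset_closure (by
    refine ⟨?_, ?_, ?_⟩ <;> simp [y', Y'])
  have hwq : w ∈ Cfsg.qd p := Subgroup.subset_closure (by
    refine ⟨?_, ?_, ?_⟩ <;> simp [w, W])
  have hxU : x ∈ UT p := by
    refine ⟨?_, ?_, ?_, ?_, ?_, ?_⟩ <;> simp [x, X]
  have hyU : y ∈ UT p := by
    refine ⟨?_, ?_, ?_, ?_, ?_, ?_⟩ <;> simp [y, Y]
  have hyU' : y' ∈ UT p := by
    refine ⟨?_, ?_, ?_, ?_, ?_, ?_⟩ <;> simp [y', Y']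
  have hP : IsPGroup p ((UT p).subgroupOf (Cfsg.qd p)) :=
    (isPGroup_UT p).comap_subtype
  set A := (UT p).subgroupOf (Cfsg.qd p) with hA
  let w' : ↥(Cfsg.qd p) := ⟨w, hwq⟩
  set B := A.map (MulAut.conj w').toMonoidHom with hB
  have hPB : IsPGroup p B := hP.map _
  -- `y = w y' w⁻¹`
  have e1 : w * y' = y * w := by
    apply Subtype.ext
    show W * Y' = Y * W
    ext i j
    fin_cases i <;> fin_cases j <;> simp [W, Y, Y', Matrix.mul_apply, Fin.sum_univ_three]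
  have hyB : (⟨y, hyq⟩ : ↥(Cfsg.qd p)) ∈ B := by
    refine ⟨⟨y', hyq'⟩, Subgroup.mem_subgroupOf.mpr hyU', ?_⟩
    apply Subtype.ext
    show w * y' * w⁻¹ = y
    rw [e1, mul_inv_cancel_right]
  have hy1 : (⟨y, hyq⟩ : ↥(Cfsg.qd p)) ≠ 1 := by
    intro h1
    have h2 : Y = 1 := congrArg (fun z => z.1.1) h1
    have h02 := congrFun (congrFun h2 0) 2
    simp [Y] at h02
  have hT := h A B hP hPB ⟨y, hyq⟩ (Subgroup.mem_subgroupOf.mpr hyU) hyB hy1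
  have hxA : (⟨x, hxq⟩ : ↥(Cfsg.qd p)) ∈ A ⊔ B :=
    Subgroup.mem_sup_left (Subgroup.mem_subgroupOf.mpr hxU)
  have hlB : w' * ⟨x, hxq⟩ * w'⁻¹ ∈ A ⊔ B :=
    Subgroup.mem_sup_right ⟨⟨x, hxq⟩, Subgroup.mem_subgroupOf.mpr hxU, rfl⟩
  -- `x (w x w⁻¹) x = w`
  let L : Matrix (Fin 3) (Fin 3) (ZMod p) := !![1, 0, 0; -1, 1, 0; 0, 0, 1]
  have hL : L.det = 1 := by simp [L, Matrix.det_fin_three]
  let l : Matrix.SpecialLinearGroup (Fin 3) (ZMod p) := ⟨L, hL⟩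
  have e2 : w * x = l * w := by
    apply Subtype.ext
    show W * X = L * W
    ext i j
    fin_cases i <;> fin_cases j <;> simp [W, X, L, Matrix.mul_apply, Fin.sum_univ_three]
  have e3 : x * l * x = w := by
    apply Subtype.ext
    show X * L * X = W
    ext i j
    fin_cases i <;> fin_cases j <;> simp [W, X, L, Matrix.mul_apply, Fin.sum_univ_three]
  have e4 : (⟨x, hxq⟩ : ↥(Cfsg.qd p)) * (w' * ⟨x, hxq⟩ * w'⁻¹) * ⟨x, hxq⟩ = w' := by
    apply Subtype.ext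
    show x * (w * x * w⁻¹) * x = w
    rw [e2, mul_inv_cancel_right, e3]
  have hwT : w' ∈ A ⊔ B := by
    rw [← e4]
    exact mul_mem (mul_mem hxA hlB) hxA
  obtain ⟨k, hk⟩ := hT ⟨w', hwT⟩
  have hk' : w ^ p ^ k = 1 := congrArg (fun z => z.1.1) hk
  have h4 : w ^ 4 = 1 := by
    apply Subtype.ext
    show W ^ 4 = 1
    have h2 : W * W = !![-1, 0, 0; 0, -1, 0; 0, 0, 1] := by
      ext i j
      fin_cases i <;> fin_cases j <;> simp [W, Matrix.mul_apply, Fin.sum_univ_three]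
    rw [show (4 : ℕ) = 2 + 2 from rfl, pow_add, pow_two, h2]
    ext i j
    fin_cases i <;> fin_cases j <;> simp [Matrix.mul_apply, Fin.sum_univ_three]
  have hcop : Nat.Coprime (p ^ k) 4 := by
    apply Nat.Coprime.pow_left
    rw [show (4 : ℕ) = 2 ^ 2 from rfl]
    apply Nat.Coprime.pow_right
    exact (Nat.coprime_primes Fact.out Nat.prime_two).2 hp
  have hw1 : w = 1 := by
    have := pow_gcd_eq_one.2 ⟨hk', h4⟩
    rwa [hcop, pow_one] at this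
  have h2 : W = 1 := congrArg (fun z => z.1) hw1
  have h01 := congrFun (congrFun h2 0) 1
  simp [W] at h01

end Cfsg.Agent.Lib.Helper50TIQd
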