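import Cfsg.Agent.Lib.Helper50TI
import Cfsg.Prelude.Def_Classical

set_option autoImplicit false

namespace Cfsg.Agent.Lib.Helper50TISU
open Cfsg.Agent.Lib.Helper50TI Matrix

variable {K : Type*} [Field K]

/-- determinant of three row vectors -/
def D (a b c : Fin 3 → K) : K := Matrix.det (Matrix.of ![a, b, c])

theorem D_eq (a b c : Fin 3 → K) : D a b c = a 0 * b 1 * c 2 - a 0 * b 2 * c 1 - a 1 * b 0 * c 2
    + a 1 * b 2 * c 0 + a 2 * b 0 * c 1 - a 2 * b 1 * c 0 := by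
  simp [D, Matrix.det_fin_three]

theorem D_dim (c a₁ a₂ a₃ : Fin 3 → K) (hc : c ≠ 0) (h1 : a₁ ⬝ᵥ c = 0) (h2 : a₂ ⬝ᵥ c = 0)
    (h3 : a₃ ⬝ᵥ c = 0) : D a₁ a₂ a₃ = 0 := by
  by_contra h
  apply hc
  apply Matrix.eq_zero_of_mulVec_eq_zero h
  ext i
  fin_cases i
  · exact h1
  · exact h2
  · exact h3

theorem D_ext (v y : Fin 3 → K) (hv : v ≠ 0) (h : ∀ u, D v y u = 0) : ∃ t : K, y = t • v := by
  have h0 := h ![1, 0, 0]
  have h1 := h ![0, 1, 0]
  have h2 := h ![0, 0, 1]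
  rw [D_eq] at h0 h1 h2
  simp at h0 h1 h2
  by_cases v0 : v 0 = 0
  · by_cases v1 : v 1 = 0
    · have v2 : v 2 ≠ 0 := by
        intro v2
        apply hv
        ext i
        fin_cases i
        · exact v0
        · exact v1
        · exact v2
      refine ⟨y 2 / v 2, ?_⟩
      ext i
      fin_cases i <;> simp <;> field_simp
      · linear_combination h1
      · linear_combination -h0
    · refine ⟨y 1 / v 1, ?_⟩
      ext i
      fin_cases i <;> simp <;> field_simp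
      · linear_combination -h2
      · linear_combination h0
  · refine ⟨y 0 / v 0, ?_⟩
    ext i
    fin_cases i <;> simp <;> field_simp
    · linear_combination h2
    · linear_combination -h1

theorem D_mul (g : Matrix (Fin 3) (Fin 3) K) (a b c : Fin 3 → K) :
    D (g *ᵥ a) (g *ᵥ b) (g *ᵥ c) = g.det * D a b c := by
  have : Matrix.of ![g *ᵥ a, g *ᵥ b, g *ᵥ c] = Matrix.of ![a, b, c] * gᵀ := by
    ext i j
    fin_cases i <;> simp [Matrix.mul_apply, Matrix.mulVec, dotProduct, mul_comm]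
  rw [D, this, Matrix.det_mul, Matrix.det_transpose, mul_comm]
  rfl

/-- entrywise `q`-th power -/
def cj (q : ℕ) (v : Fin 3 → K) : Fin 3 → K := fun i => (v i) ^ q

theorem herm_eq (q : ℕ) (u v : Fin 3 → K) : Cfsg.hermForm 3 K q u v = u ⬝ᵥ cj q v := rfl

theorem cj_ne_zero (q : ℕ) (v : Fin 3 → K) (hv : v ≠ 0) : cj q v ≠ 0 := by
  intro h
  apply hv
  ext i
  have := congrFun h i
  exact eq_zero_of_pow_eq_zero this

/-- an isometry of determinant one fixing the isotropic vector `v` acts trivially on `v^⊥/v` -/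
theorem sub_eq_smul (q : ℕ) (g : Matrix (Fin 3) (Fin 3) K) (hdet : g.det = 1)
    (hg : ∀ u v, Cfsg.hermForm 3 K q (g *ᵥ u) (g *ᵥ v) = Cfsg.hermForm 3 K q u v)
    (v : Fin 3 → K) (hv : v ≠ 0) (hvv : Cfsg.hermForm 3 K q v v = 0) (hgv : g *ᵥ v = v)
    (w : Fin 3 → K) (hw : Cfsg.hermForm 3 K q w v = 0) : ∃ t : K, g *ᵥ w - w = t • v := by
  apply D_ext v _ hv
  intro u
  have h1 : D v (g *ᵥ w) (g *ᵥ u) = D v w u := by
    have := D_mul g v w u
    rwa [hgv, hdet, one_mul] at this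
  have h2 : D v (g *ᵥ w) (g *ᵥ u - u) = 0 := by
    apply D_dim (cj q v) _ _ _ (cj_ne_zero q v hv) hvv
    · have := hg w v
      rw [hgv, hw] at this
      exact this
    · have := hg u v
      rw [hgv, herm_eq, herm_eq] at this
      rw [sub_dotProduct, this, sub_self]
  rw [D_eq] at h1 h2 ⊢
  rw [D_eq] at h1
  simp only [Pi.sub_apply] at h2 ⊢
  linear_combination h1 - h2

theorem cube_eq_zero (q : ℕ) (g : Matrix (Fin 3) (Fin 3) K) (hdet : g.det = 1)
    (hg : ∀ u v, Cfsg.hermForm 3 K q (g *ᵥ u) (g *ᵥ v) = Cfsg.hermForm 3 K q u v)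
    (v : Fin 3 → K) (hv : v ≠ 0) (hvv : Cfsg.hermForm 3 K q v v = 0) (hgv : g *ᵥ v = v) :
    (g - 1) ^ 3 = 0 := by
  have hN : ∀ y, (g - 1) *ᵥ y = g *ᵥ y - y := by
    intro y
    rw [Matrix.sub_mulVec, Matrix.one_mulVec]
  apply Matrix.toLin'.injective
  apply LinearMap.ext
  intro y
  rw [Matrix.toLin'_apply, pow_succ, pow_two, ← Matrix.mulVec_mulVec, ← Matrix.mulVec_mulVec]
  have h1 : Cfsg.hermForm 3 K q ((g - 1) *ᵥ y) v = 0 := by
    have := hg y v
    rw [hgv, herm_eq, herm_eq] at this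
    rw [hN, herm_eq, sub_dotProduct, this, sub_self]
  obtain ⟨t, ht⟩ := sub_eq_smul q g hdet hg v hv hvv hgv _ h1
  rw [hN ((g - 1) *ᵥ y), ht, hN, Matrix.mulVec_smul, hgv, sub_self]
  simp

theorem pow_char_eq_one {p : ℕ} [Fact p.Prime] [CharP K p] (hp : p ≠ 2)
    (g : Matrix (Fin 3) (Fin 3) K) (h : (g - 1) ^ 3 = 0) : g ^ p = 1 := by
  have hp3 : 3 ≤ p := by
    have : 2 ≤ p := (Fact.out : p.Prime).two_le
    omega
  have hM : g = 1 + (g - 1) := by abel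
  rw [hM, add_pow_char_of_commute p (Commute.one_left (g - 1)), one_pow,
    pow_eq_zero_of_le hp3 h, add_zero]

theorem herm_symm {p : ℕ} [Fact p.Prime] [CharP K p] [Fintype K] (n : ℕ)
    (hK : Fintype.card K = (p ^ n) ^ 2) (u v : Fin 3 → K) :
    (Cfsg.hermForm 3 K (p ^ n) u v) ^ (p ^ n) = Cfsg.hermForm 3 K (p ^ n) v u := by
  unfold Cfsg.hermForm
  rw [sum_pow_char_pow]
  apply Finset.sum_congr rfl
  intro i _
  rw [mul_pow, ← pow_mul, ← pow_two, ← hK, FiniteField.pow_card, mul_comm]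

theorem D_cj {p : ℕ} [Fact p.Prime] [CharP K p] (n : ℕ) (a b c : Fin 3 → K) :
    D (cj (p ^ n) a) (cj (p ^ n) b) (cj (p ^ n) c) = (D a b c) ^ (p ^ n) := by
  have h := RingHom.map_det (iterateFrobenius K p n) (Matrix.of ![a, b, c])
  rw [iterateFrobenius_def] at h
  rw [D, D, h]
  congr 1
  ext i j
  fin_cases i <;> simp [cj, iterateFrobenius_def]

/-- the Witt index is at most one -/
theorem witt {p : ℕ} [Fact p.Prime] [CharP K p] (n : ℕ) (v v' : Fin 3 → K) (hv : v ≠ 0)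
    (h00 : Cfsg.hermForm 3 K (p ^ n) v v = 0) (h01 : Cfsg.hermForm 3 K (p ^ n) v v' = 0)
    (h10 : Cfsg.hermForm 3 K (p ^ n) v' v = 0) (h11 : Cfsg.hermForm 3 K (p ^ n) v' v' = 0) :
    ∃ t : K, v' = t • v := by
  apply D_ext v _ hv
  intro u
  set A : Matrix (Fin 3) (Fin 3) K := Matrix.of ![v, v', u] with hA
  set C : Matrix (Fin 3) (Fin 3) K :=
    Matrix.of ![cj (p ^ n) v, cj (p ^ n) v', cj (p ^ n) u] with hC
  have hdet : (A * Cᵀ).det = D v v' u * (D v v' u) ^ (p ^ n) := by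
    rw [Matrix.det_mul, Matrix.det_transpose, ← D_cj]
    rfl
  have g00 : (A * Cᵀ) 0 0 = 0 := h00
  have g01 : (A * Cᵀ) 0 1 = 0 := h01
  have g10 : (A * Cᵀ) 1 0 = 0 := h10
  have g11 : (A * Cᵀ) 1 1 = 0 := h11
  rw [Matrix.det_fin_three, g00, g01, g10, g11] at hdet
  have : D v v' u * (D v v' u) ^ (p ^ n) = 0 := by rw [← hdet]; ring
  rcases mul_eq_zero.1 this with h | h
  · exact h
  · exact eq_zero_of_pow_eq_zero h

theorem eq_one_of_fix {p : ℕ} [Fact p.Prime] [CharP K p] [Fintype K] (n : ℕ)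
    (hK : Fintype.card K = (p ^ n) ^ 2) (g : Matrix (Fin 3) (Fin 3) K) (hdet : g.det = 1)
    (hg : ∀ u v, Cfsg.hermForm 3 K (p ^ n) (g *ᵥ u) (g *ᵥ v) = Cfsg.hermForm 3 K (p ^ n) u v)
    (v v' : Fin 3 → K) (hv : v ≠ 0) (hv' : v' ≠ 0)
    (hvv : Cfsg.hermForm 3 K (p ^ n) v v = 0) (hvv' : Cfsg.hermForm 3 K (p ^ n) v' v' = 0)
    (hgv : g *ᵥ v = v) (hgv' : g *ᵥ v' = v') (hne : ∀ t : K, v' ≠ t • v) : g = 1 := by
  have hq : p ^ n ≠ 0 := pow_ne_zero _ (Fact.out : p.Prime).ne_zero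
  have hb : Cfsg.hermForm 3 K (p ^ n) v v' ≠ 0 := by
    intro h0
    have h10 : Cfsg.hermForm 3 K (p ^ n) v' v = 0 := by
      rw [← herm_symm n hK, h0, zero_pow hq]
    obtain ⟨t, ht⟩ := witt n v v' hv hvv h0 h10 hvv'
    exact hne t ht
  have hb' : Cfsg.hermForm 3 K (p ^ n) v' v ≠ 0 := by
    intro h0
    apply hb
    rw [← herm_symm n hK, h0, zero_pow hq]
  apply Matrix.toLin'.injective
  apply LinearMap.ext
  intro y
  rw [Matrix.toLin'_apply, Matrix.toLin'_one, LinearMap.id_apply]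
  set a := Cfsg.hermForm 3 K (p ^ n) y v' / Cfsg.hermForm 3 K (p ^ n) v v' with ha
  set b := Cfsg.hermForm 3 K (p ^ n) y v / Cfsg.hermForm 3 K (p ^ n) v' v with hb0
  set m := y - a • v - b • v' with hm
  have h1 : Cfsg.hermForm 3 K (p ^ n) m v = 0 := by
    rw [herm_eq] at hvv hb' ⊢
    rw [hm, sub_dotProduct, sub_dotProduct, smul_dotProduct, smul_dotProduct, hvv, hb0, herm_eq,
      herm_eq, smul_eq_mul, smul_eq_mul]
    field_simp
    ring
  have h2 : Cfsg.hermForm 3 K (p ^ n) m v' = 0 := by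
    rw [herm_eq] at hvv' hb ⊢
    rw [hm, sub_dotProduct, sub_dotProduct, smul_dotProduct, smul_dotProduct, hvv', ha, herm_eq,
      herm_eq, smul_eq_mul, smul_eq_mul]
    field_simp
    ring
  obtain ⟨t, ht⟩ := sub_eq_smul (p ^ n) g hdet hg v hv hvv hgv m h1
  obtain ⟨t', ht'⟩ := sub_eq_smul (p ^ n) g hdet hg v' hv' hvv' hgv' m h2
  have ht0 : t' = 0 := by
    by_contra h0
    apply hne (t'⁻¹ * t)
    rw [mul_smul, ← ht, ht', smul_smul, inv_mul_cancel₀ h0, one_smul]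
  have hgm : g *ᵥ m = m := by
    rw [ht0, zero_smul] at ht'
    exact sub_eq_zero.1 ht'
  have hy : y = m + a • v + b • v' := by rw [hm]; abel
  rw [hy, Matrix.mulVec_add, Matrix.mulVec_add, Matrix.mulVec_smul, Matrix.mulVec_smul, hgm, hgv,
    hgv']

theorem exists_fixed {p : ℕ} [Fact p.Prime] [CharP K p] [Fintype K] (q : ℕ)
    (P : Subgroup ↥(Cfsg.SU 3 K q)) (hP : IsPGroup p P) (x : ↥(Cfsg.SU 3 K q)) (hx : x ∈ P)
    (hx1 : x ≠ 1) :
    ∃ v : Fin 3 → K, v ≠ 0 ∧ Cfsg.hermForm 3 K q v v = 0 ∧ ∀ g ∈ P, g.1.1 *ᵥ v = v := by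
  classical
  let M : Submodule K (Fin 3 → K) :=
    Submodule.span K {z | ∃ g ∈ P, ∃ y : Fin 3 → K, z = g.1.1 *ᵥ y - y}
  have hinv : ∀ h ∈ P, ∀ m ∈ M, h.1.1 *ᵥ m ∈ M := by
    intro h hh m hm
    have : M.map (Matrix.toLin' h.1.1) ≤ M := by
      rw [Submodule.map_span_le]
      rintro _ ⟨g, hg, y, rfl⟩
      rw [Matrix.toLin'_apply, Matrix.mulVec_sub, Matrix.mulVec_mulVec]
      have e : (h.1.1 * g.1.1) *ᵥ y - h.1.1 *ᵥ y
          = ((h * g).1.1 *ᵥ y - y) - (h.1.1 *ᵥ y - y) := by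
        rw [sub_sub_sub_cancel_right]
        rfl
      rw [e]
      exact M.sub_mem (Submodule.subset_span ⟨h * g, mul_mem hh hg, y, rfl⟩)
        (Submodule.subset_span ⟨h, hh, y, rfl⟩)
    exact this ⟨m, hm, rfl⟩
  let _ : MulAction P M :=
    { smul := fun g m => ⟨g.1.1.1 *ᵥ m.1, hinv g.1 g.2 m.1 m.2⟩
      one_smul := by
        intro m
        apply Subtype.ext
        show (1 : Matrix (Fin 3) (Fin 3) K) *ᵥ m.1 = m.1
        simp
      mul_smul := by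
        intro g h m
        apply Subtype.ext
        show (g.1.1.1 * h.1.1.1) *ᵥ m.1 = g.1.1.1 *ᵥ (h.1.1.1 *ᵥ m.1)
        rw [Matrix.mulVec_mulVec] }
  have hMne : M ≠ ⊥ := by
    intro hM
    apply hx1
    apply Subtype.ext
    apply Subtype.ext
    apply Matrix.toLin'.injective
    apply LinearMap.ext
    intro y
    have : x.1.1 *ᵥ y - y ∈ M := Submodule.subset_span ⟨x, hx, y, rfl⟩
    rw [hM, Submodule.mem_bot, sub_eq_zero] at this
    rw [Matrix.toLin'_apply, this]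
    simp
  have hcard : p ∣ Nat.card M := by
    obtain ⟨k, _, hk⟩ := FiniteField.card K p
    rw [Module.natCard_eq_pow_finrank (K := K), Nat.card_eq_fintype_card, hk]
    have : Module.finrank K M ≠ 0 := by
      intro h0
      exact hMne (Submodule.finrank_eq_zero.1 h0)
    exact dvd_pow (dvd_pow_self p k.ne_zero) this
  have hfix : (0 : M) ∈ MulAction.fixedPoints P M := by
    intro g
    apply Subtype.ext
    show g.1.1.1 *ᵥ (0 : Fin 3 → K) = 0
    simp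
  obtain ⟨v, hv, hv0⟩ := hP.exists_fixed_point_of_prime_dvd_card_of_fixed_point M hcard hfix
  have hvfix : ∀ g ∈ P, g.1.1 *ᵥ v.1 = v.1 := fun g hg => congrArg Subtype.val (hv ⟨g, hg⟩)
  refine ⟨v.1, ?_, ?_, hvfix⟩
  · intro h0
    exact hv0 (Subtype.ext h0.symm)
  · have : ∀ m ∈ M, Cfsg.hermForm 3 K q m v.1 = 0 := by
      intro m hm
      induction hm using Submodule.span_induction with
      | mem z hz =>
        obtain ⟨g, hg, y, rfl⟩ := hz
        have h1 := g.2 y v.1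
        have h2 : Cfsg.hermForm 3 K q (g.1.1 *ᵥ y) (g.1.1 *ᵥ v.1) = Cfsg.hermForm 3 K q y v.1 := h1
        rw [hvfix g hg, herm_eq, herm_eq] at h2
        rw [herm_eq, sub_dotProduct, h2, sub_self]
      | zero => rw [herm_eq, zero_dotProduct]
      | add a b _ _ ha hb =>
        rw [herm_eq] at ha hb ⊢
        rw [add_dotProduct, ha, hb, add_zero]
      | smul c a _ ha =>
        rw [herm_eq] at ha ⊢
        rw [smul_dotProduct, ha, smul_zero]
    exact this v.1 v.2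

/-- the stabiliser of a vector -/
def Fix (q : ℕ) (v : Fin 3 → K) : Subgroup ↥(Cfsg.SU 3 K q) where
  carrier := {g | g.1.1 *ᵥ v = v}
  mul_mem' := by
    intro a b ha hb
    show (a.1.1 * b.1.1) *ᵥ v = v
    rw [← Matrix.mulVec_mulVec, hb, ha]
  one_mem' := by
    show (1 : Matrix (Fin 3) (Fin 3) K) *ᵥ v = v
    simp
  inv_mem' := by
    intro a ha
    have ha' : a.1.1 *ᵥ v = v := ha
    show (a⁻¹).1.1 *ᵥ v = v
    have h1 : (a⁻¹).1.1 * a.1.1 = 1 := congrArg (fun z => z.1.1) (inv_mul_cancel a)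
    calc (a⁻¹).1.1 *ᵥ v = (a⁻¹).1.1 *ᵥ (a.1.1 *ᵥ v) := by rw [ha']
      _ = v := by rw [Matrix.mulVec_mulVec, h1, Matrix.one_mulVec]

theorem isPGroup_Fix {p : ℕ} [Fact p.Prime] [CharP K p] (hp : p ≠ 2) (q : ℕ) (v : Fin 3 → K)
    (hv : v ≠ 0) (hvv : Cfsg.hermForm 3 K q v v = 0) : IsPGroup p (Fix q v) := by
  rintro ⟨g, hg⟩
  refine ⟨1, ?_⟩
  apply Subtype.ext
  apply Subtype.ext
  apply Subtype.ext
  show g.1.1 ^ p ^ 1 = 1
  rw [pow_one]
  exact pow_char_eq_one hp _ (cube_eq_zero q g.1.1 g.1.2 g.2 v hv hvv hg)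

theorem ti_su3 {p : ℕ} [Fact p.Prime] [CharP K p] [Fintype K] (hp : p ≠ 2) (n : ℕ)
    (hK : Fintype.card K = (p ^ n) ^ 2) : TI p ↥(Cfsg.SU 3 K (p ^ n)) := by
  intro A B hA hB x hxA hxB hx1
  obtain ⟨v, hv, hvv, hAv⟩ := exists_fixed (p ^ n) A hA x hxA hx1
  obtain ⟨v', hv', hvv', hBv⟩ := exists_fixed (p ^ n) B hB x hxB hx1
  have hex : ∃ t : K, v' = t • v := by
    by_contra hne
    push_neg at hne
    apply hx1
    apply Subtype.ext
    apply Subtype.ext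
    exact eq_one_of_fix n hK x.1.1 x.1.2 x.2 v v' hv hv' hvv hvv' (hAv x hxA) (hBv x hxB) hne
  obtain ⟨t, rfl⟩ := hex
  have ht : t ≠ 0 := by
    rintro rfl
    exact hv' (zero_smul _ _)
  have hA' : A ≤ Fix (p ^ n) v := fun g hg => hAv g hg
  have hB' : B ≤ Fix (p ^ n) v := by
    intro g hg
    have := hBv g hg
    rw [Matrix.mulVec_smul] at this
    exact smul_right_injective _ ht this
  exact (isPGroup_Fix hp (p ^ n) v hv hvv).to_le (sup_le hA' hB')

end Cfsg.Agent.Lib.Helper50TISU
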