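import Mathlib

set_option autoImplicit false

namespace Cfsg.Agent.Lib.Helper50Tv4

variable {Γ V : Type*} [Group Γ] [AddCommGroup V] [DistribMulAction Γ V] [FaithfulSMul Γ V]

theorem eq_one_of_smul {y : Γ} (h : ∀ v : V, y • v = v) : y = 1 :=
  FaithfulSMul.eq_of_smul_eq_smul (α := V) (fun v => by rw [h v, one_smul])

theorem eq_one_of_pow {y : Γ} {k m : ℕ} (hk : y ^ (2 ^ k) = 1) (hm : Odd m) (hym : y ^ m = 1) :
    y = 1 := by
  have h1 : orderOf y ∣ 2 ^ k := orderOf_dvd_of_pow_eq_one hk
  have h2 : orderOf y ∣ m := orderOf_dvd_of_pow_eq_one hym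
  have h3 : Nat.Coprime (2 ^ k) m := Nat.Coprime.pow_left k (Nat.coprime_two_left.2 hm)
  have h4 : orderOf y = 1 := Nat.eq_one_of_dvd_coprimes h3 h1 h2
  exact orderOf_eq_one_iff.1 h4

/-- `y` is inverted by `t` and has odd order -/
def Inv (t y : Γ) : Prop := t * y * t = y⁻¹ ∧ ∃ m, Odd m ∧ y ^ m = 1

section
variable (h2 : ∀ v : V, v + v = 0) {a : V} (ha : a ≠ 0) {t : Γ}
  (ht : ∀ v : V, t • v = v ∨ t • v = v + a) (htt : t * t = 1)

include h2 ha ht in
theorem t_a : t • a = a := by
  rcases ht a with h | h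
  · exact h
  · exfalso
    rw [h2 a] at h
    exact ha ((smul_eq_zero_iff_eq t).1 h)

include htt in
theorem sq_eq {y : Γ} (hy : Inv t y) : y * y = (y * t * y⁻¹) * t := by
  have h1 : t * y⁻¹ * t = y := by
    have ht' : t⁻¹ = t := inv_eq_of_mul_eq_one_left htt
    calc t * y⁻¹ * t = (t * y * t)⁻¹ := by simp only [mul_inv_rev, ht', mul_assoc]
      _ = y := by rw [hy.1, inv_inv]
  calc y * y = y * (t * y⁻¹ * t) := by rw [h1]
    _ = _ := by group

include ht htt in
theorem fact1 {y : Γ} (hy : Inv t y) (v : V) :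
    (y * y) • v = v ∨ (y * y) • v = v + a ∨ (y * y) • v = v + y • a ∨
      (y * y) • v = v + a + y • a := by
  rw [sq_eq htt hy]
  have key : ∀ w : V, (y * t * y⁻¹) • w = w ∨ (y * t * y⁻¹) • w = w + y • a := by
    intro w
    rcases ht (y⁻¹ • w) with h | h
    · left; rw [mul_smul, mul_smul, h, smul_inv_smul]
    · right; rw [mul_smul, mul_smul, h, smul_add, smul_inv_smul]
  rw [mul_smul]
  rcases ht v with h | h
  · rw [h]
    rcases key v with h' | h'
    · left; exact h'
    · right; right; left; exact h'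
  · rw [h]
    rcases key (v + a) with h' | h'
    · right; left; exact h'
    · right; right; right; exact h'

include h2 ha ht htt in
theorem fact2 {y : Γ} (hy : Inv t y) (hya : y • a = a) : y = 1 := by
  obtain ⟨m, hm, hym⟩ := hy.2
  have hga : (y * y) • a = a := by rw [mul_smul, hya, hya]
  have h4 : ∀ v : V, ((y * y) * (y * y)) • v = v := by
    intro v
    rw [mul_smul]
    rcases fact1 ht htt hy v with h | h | h | h
    · rw [h, h]
    · rw [h, smul_add, h, hga, add_assoc, h2, add_zero]
    · rw [hya] at h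
      rw [h, smul_add, h, hga, add_assoc, h2, add_zero]
    · rw [hya, add_assoc, h2, add_zero] at h
      rw [h, h]
  have h5 : y ^ (2 ^ 2) = 1 := by
    have := eq_one_of_smul h4
    rw [← this]; norm_num [pow_succ, mul_assoc]
  exact eq_one_of_pow h5 hm hym

theorem inv_sq {y : Γ} (htt : t * t = 1) (hy : Inv t y) : Inv t (y * y) := by
  obtain ⟨h1, m, hm, hym⟩ := hy
  refine ⟨?_, m, hm, ?_⟩
  · calc t * (y * y) * t = (t * y * t) * (t * t)⁻¹ * (t * y * t) := by
          rw [htt]; simp only [inv_one, mul_one]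
          calc t * (y * y) * t = t * y * 1 * y * t := by group
            _ = t * y * (t * t) * y * t := by rw [htt]
            _ = _ := by group
      _ = (y * y)⁻¹ := by rw [h1, htt]; simp
  · rw [← pow_two, ← pow_mul, mul_comm, pow_mul, hym, one_pow]

include h2 ha ht htt in
theorem fact3 {y : Γ} (hy : Inv t y) (hy1 : y ≠ 1) : (y * y) • a = a + y • a := by
  obtain ⟨m, hm, hym⟩ := hy.2
  rcases fact1 ht htt hy a with h | h | h | h
  · exfalso
    have := fact2 h2 ha ht htt (inv_sq htt hy) h
    apply hy1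
    exact eq_one_of_pow (k := 1) (by rw [pow_one, pow_two]; exact this) hm hym
  · exfalso
    rw [h2] at h
    exact ha ((smul_eq_zero_iff_eq _).1 h)
  · exact h
  · exfalso
    rw [h2, zero_add, mul_smul] at h
    have : y • a = a := smul_left_cancel y h
    exact hy1 (fact2 h2 ha ht htt hy this)

theorem inv_mul {y z : Γ} (htt : t * t = 1) (hy : Inv t y) (hz : Inv t z) (hc : y * z = z * y) :
    Inv t (y * z) := by
  obtain ⟨h1, m, hm, hym⟩ := hy
  obtain ⟨h1', m', hm', hzm⟩ := hz
  refine ⟨?_, m * m', hm.mul hm', ?_⟩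
  · calc t * (y * z) * t = (t * y * t) * (t * z * t) := by
          calc t * (y * z) * t = t * y * 1 * z * t := by group
            _ = t * y * (t * t) * z * t := by rw [htt]
            _ = _ := by group
      _ = (y * z)⁻¹ := by rw [h1, h1', hc, mul_inv_rev]
  · rw [(show Commute y z from hc).mul_pow, pow_mul, hym, one_pow, mul_comm m m', pow_mul, hzm,
      one_pow, one_mul]

theorem inv_inv' {y : Γ} (htt : t * t = 1) (hy : Inv t y) : Inv t y⁻¹ := by
  obtain ⟨h1, m, hm, hym⟩ := hy
  have ht' : t⁻¹ = t := inv_eq_of_mul_eq_one_left htt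
  refine ⟨?_, m, hm, by rw [inv_pow, hym, inv_one]⟩
  calc t * y⁻¹ * t = (t * y * t)⁻¹ := by simp only [mul_inv_rev, ht', mul_assoc]
    _ = y⁻¹⁻¹ := by rw [h1]

include h2 ha ht htt in
theorem fact4 {y z : Γ} (hy : Inv t y) (hz : Inv t z) (hc : y * z = z * y)
    (hy1 : y ≠ 1) (hz1 : z ≠ 1) (hyz : y * z ≠ 1) : y = z := by
  have e1 := fact3 h2 ha ht htt hy hy1
  have e2 := fact3 h2 ha ht htt hz hz1
  have e3 := fact3 h2 ha ht htt (inv_mul htt hy hz hc) hyz
  have e4 : ((y * z) * (y * z)) • a = a + y • a + z • a + (y * z) • a := by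
    have : (y * z) * (y * z) = (y * y) * (z * z) := by
      calc (y * z) * (y * z) = y * (z * y) * z := by group
        _ = y * (y * z) * z := by rw [hc]
        _ = _ := by group
    rw [this, mul_smul, e2, smul_add, e1]
    have : (y * y) • z • a = z • (y * y) • a := by
      rw [← mul_smul, ← mul_smul]
      congr 1
      calc y * y * z = y * (y * z) := by group
        _ = y * (z * y) := by rw [hc]
        _ = (y * z) * y := by group
        _ = (z * y) * y := by rw [hc]
        _ = _ := by group
    rw [this, e1, smul_add, ← mul_smul z y, ← hc]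
    abel
  rw [e3] at e4
  have e5 : y • a = z • a := by
    have h : y • a + z • a = 0 := by
      have : a + (y * z) • a = (a + (y * z) • a) + (y • a + z • a) := by
        calc a + (y * z) • a = a + y • a + z • a + (y * z) • a := e4
          _ = _ := by abel
      exact (left_eq_add.1 this)
    calc y • a = y • a + (z • a + z • a) := by rw [h2, add_zero]
      _ = (y • a + z • a) + z • a := by abel
      _ = z • a := by rw [h, zero_add]
  have hc' : z⁻¹ * y = y * z⁻¹ := by
    calc z⁻¹ * y = z⁻¹ * (y * z) * z⁻¹ := by group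
      _ = z⁻¹ * (z * y) * z⁻¹ := by rw [hc]
      _ = _ := by group
  have e6 : z⁻¹ * y = 1 := by
    apply fact2 h2 ha ht htt (inv_mul htt (inv_inv' htt hz) hy hc')
    rw [mul_smul, e5, inv_smul_smul]
  calc y = z * (z⁻¹ * y) := by group
    _ = z := by rw [e6, mul_one]

/-- elements moving every vector inside `Y` -/
def Qs (Y : AddSubgroup V) : Subgroup Γ where
  carrier := {b | ∀ v : V, b • v - v ∈ Y}
  one_mem' := by intro v; simp
  mul_mem' := by
    intro b c hb hc v
    have : (b * c) • v - v = (b • (c • v) - c • v) + (c • v - v) := by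
      rw [mul_smul]; abel
    rw [this]
    exact add_mem (hb _) (hc _)
  inv_mem' := by
    intro b hb v
    have : b⁻¹ • v - v = -(b • (b⁻¹ • v) - b⁻¹ • v) := by
      rw [smul_inv_smul]; abel
    rw [this]
    exact neg_mem (hb _)

include h2 in
theorem kill {Y : AddSubgroup V} {c : Γ} (hc : c ∈ Qs (Γ := Γ) Y) (hfix : ∀ e ∈ Y, c • e = e) :
    c * c = 1 := by
  apply eq_one_of_smul (V := V)
  intro v
  have he := hc v
  have h1 : c • v = v + (c • v - v) := by abel
  rw [mul_smul]
  calc c • c • v = c • (v + (c • v - v)) := by rw [← h1]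
    _ = c • v + (c • v - v) := by rw [smul_add, hfix _ he]
    _ = v + ((c • v - v) + (c • v - v)) := by abel
    _ = v := by rw [h2, add_zero]

theorem comm_conj {c x : Γ} (htt : t * t = 1) (hc : c * x = x * c) (hxi : t * x * t = x⁻¹) :
    (t * c * t) * x = x * (t * c * t) := by
  have ht' : t⁻¹ = t := inv_eq_of_mul_eq_one_left htt
  have hx : x = t * x⁻¹ * t := by
    calc x = (t * x * t)⁻¹ := by rw [hxi, inv_inv]
      _ = _ := by simp only [mul_inv_rev, ht', mul_assoc]
  have hc' : c * x⁻¹ = x⁻¹ * c := by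
    calc c * x⁻¹ = x⁻¹ * (x * c) * x⁻¹ := by group
      _ = x⁻¹ * (c * x) * x⁻¹ := by rw [hc]
      _ = _ := by group
  calc (t * c * t) * x = (t * c * t) * (t * x⁻¹ * t) := by rw [← hx]
    _ = t * c * (t * t) * x⁻¹ * t := by group
    _ = t * (c * x⁻¹) * t := by rw [htt]; group
    _ = t * (x⁻¹ * c) * t := by rw [hc']
    _ = t * x⁻¹ * (t * t) * c * t := by rw [htt]; group
    _ = (t * x⁻¹ * t) * (t * c * t) := by group
    _ = x * (t * c * t) := by rw [← hx]

include h2 ha ht htt in
theorem fact5 [Finite Γ] {r : ℕ} [Fact r.Prime] (hr2 : r ≠ 2) (R : Subgroup Γ) (hR : IsPGroup r R)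
    {v0 : V} (hv0 : t • v0 = v0 + a) {x x' : Γ} (hx : x ∈ R) (hx' : x' ∈ R)
    (hxi : t * x * t = x⁻¹) (hxi' : t * x' * t = x'⁻¹) (hx1 : x ≠ 1) (hx1' : x' ≠ 1) :
    x' = x ∨ x' = x⁻¹ := by
  have hodd : ∀ y ∈ R, ∃ m, Odd m ∧ y ^ m = 1 := by
    intro y hy
    obtain ⟨k, hk⟩ := hR ⟨y, hy⟩
    refine ⟨r ^ k, ((Fact.out : r.Prime).odd_of_ne_two hr2).pow, ?_⟩
    simpa [Subtype.ext_iff] using hk
  have hIx : Inv t x := ⟨hxi, hodd x hx⟩
  have hIx' : Inv t x' := ⟨hxi', hodd x' hx'⟩
  set A := Subgroup.closure ({x, x'} : Set Γ) with hA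
  have hxA : x ∈ A := Subgroup.subset_closure (by simp)
  have hxA' : x' ∈ A := Subgroup.subset_closure (by simp)
  have hAR : A ≤ R := by
    rw [hA, Subgroup.closure_le]
    intro y hy
    rcases hy with rfl | rfl
    · exact hx
    · exact hx'
  have hAp : IsPGroup r A := hR.to_le hAR
  haveI : Nontrivial A := ⟨⟨⟨x, hxA⟩, 1, by simpa [Subtype.ext_iff] using hx1⟩⟩
  haveI := hAp.center_nontrivial
  obtain ⟨c0, hc0⟩ := exists_ne (1 : Subgroup.center A)
  set c : Γ := ((c0 : A) : Γ) with hc
  have hcA : c ∈ A := (c0 : A).2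
  have hc1 : c ≠ 1 := by
    intro h
    apply hc0
    apply Subtype.ext; apply Subtype.ext
    exact h
  have hcen : ∀ g ∈ A, g * c = c * g := by
    intro g hg
    have := Subgroup.mem_center_iff.1 c0.2 ⟨g, hg⟩
    simpa [Subtype.ext_iff] using this
  have htA : ∀ b ∈ A, t * b * t ∈ A := by
    intro b hb
    induction hb using Subgroup.closure_induction with
    | mem y hy =>
      rcases hy with rfl | rfl
      · rw [hxi]; exact inv_mem hxA
      · rw [hxi']; exact inv_mem hxA'
    | one => simpa [htt] using one_mem A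
    | mul y z _ _ ihy ihz =>
      have : t * (y * z) * t = (t * y * t) * (t * z * t) := by
        calc t * (y * z) * t = t * y * 1 * z * t := by group
          _ = t * y * (t * t) * z * t := by rw [htt]
          _ = _ := by group
      rw [this]; exact mul_mem ihy ihz
    | inv y _ ihy =>
      have ht' : t⁻¹ = t := inv_eq_of_mul_eq_one_left htt
      have : t * y⁻¹ * t = (t * y * t)⁻¹ := by simp only [mul_inv_rev, ht', mul_assoc]
      rw [this]; exact inv_mem ihy
  set d := t * c * t with hd
  have hdA : d ∈ A := htA c hcA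
  have hcd : d * c = c * d := hcen d hdA
  have hcx : c * x = x * c := (hcen x hxA).symm
  have hcx' : c * x' = x' * c := (hcen x' hxA').symm
  by_cases hc1' : c * d = 1
  · -- c is inverted
    have hIc : Inv t c := ⟨by rw [← hd]; exact eq_inv_of_mul_eq_one_right hc1', hodd c (hAR hcA)⟩
    have hxx : x' * x = x * x' := by
      by_cases hcx1 : c * x = 1
      · have : x = c⁻¹ := eq_inv_of_mul_eq_one_right hcx1
        rw [this]
        calc x' * c⁻¹ = c⁻¹ * (c * x') * c⁻¹ := by group
          _ = c⁻¹ * (x' * c) * c⁻¹ := by rw [hcx']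
          _ = _ := by group
      · have : c = x := fact4 h2 ha ht htt hIc hIx hcx hc1 hx1 hcx1
        rw [← this]; exact hcx'.symm
    by_cases hxx1 : x' * x = 1
    · right; exact eq_inv_of_mul_eq_one_left hxx1
    · left; exact fact4 h2 ha ht htt hIx' hIx hxx hx1' hx1 hxx1
  · exfalso
    apply hc1'
    set c1 := c * d with hc1def
    have hc1A : c1 ∈ A := mul_mem hcA hdA
    have htc : t * c1 = c1 * t := by
      rw [hc1def, hd]
      calc t * (c * (t * c * t)) = (t * c * t) * c * t := by group
        _ = c * (t * c * t) * t := by rw [← hd, hcd]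
    have hc1a : c1 • a = a := by
      have e : t • (c1 • v0) = c1 • v0 + c1 • a := by
        rw [← mul_smul, htc, mul_smul, hv0, smul_add]
      rcases ht (c1 • v0) with h | h
      · exfalso
        rw [h] at e
        have : c1 • a = 0 := (left_eq_add.1 e)
        exact ha ((smul_eq_zero_iff_eq _).1 this)
      · rw [h] at e
        exact (add_left_cancel e).symm
    have hc1x : c1 * x = x * c1 := by
      have := comm_conj htt hcx hxi
      rw [← hd] at this
      calc c * d * x = c * (d * x) := by group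
        _ = c * (x * d) := by rw [this]
        _ = (c * x) * d := by group
        _ = (x * c) * d := by rw [hcx]
        _ = x * (c * d) := by rw [mul_assoc]
    have hc1x' : c1 * x' = x' * c1 := by
      have := comm_conj htt hcx' hxi'
      rw [← hd] at this
      calc c * d * x' = c * (d * x') := by group
        _ = c * (x' * d) := by rw [this]
        _ = (c * x') * d := by group
        _ = (x' * c) * d := by rw [hcx']
        _ = x' * (c * d) := by rw [mul_assoc]
    set Y := AddSubgroup.closure ({a, x • a, x' • a} : Set V) with hY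
    have haY : a ∈ Y := AddSubgroup.subset_closure (by simp)
    have hxaY : x • a ∈ Y := AddSubgroup.subset_closure (by simp)
    have hxaY' : x' • a ∈ Y := AddSubgroup.subset_closure (by simp)
    have hsq : ∀ y : Γ, Inv t y → y • a ∈ Y → y ∈ Qs (Γ := Γ) Y := by
      intro y hy hya
      have h1 : y * y ∈ Qs (Γ := Γ) Y := by
        intro v
        rcases fact1 ht htt hy v with h | h | h | h
        · rw [h]; simp
        · rw [h]; simpa using haY
        · rw [h]; simpa using hya
        · rw [h]
          have : v + a + y • a - v = a + y • a := by abel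
          rw [this]; exact add_mem haY hya
      obtain ⟨m, ⟨j, rfl⟩, hym⟩ := hy.2
      have : y = (y * y) ^ (j + 1) := by
        rw [← pow_two, ← pow_mul]
        calc y = y ^ (2 * j + 1) * y := by rw [hym, one_mul]
          _ = _ := by rw [← pow_succ]; congr 1
      rw [this]; exact pow_mem h1 _
    have hAQ : A ≤ Qs (Γ := Γ) Y := by
      rw [hA, Subgroup.closure_le]
      intro y hy
      rcases hy with rfl | rfl
      · exact hsq _ hIx hxaY
      · exact hsq _ hIx' hxaY'
    have hfix : ∀ e ∈ Y, c1 • e = e := by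
      intro e he
      induction he using AddSubgroup.closure_induction with
      | mem y hy =>
        rcases hy with rfl | rfl | rfl
        · exact hc1a
        · rw [← mul_smul, hc1x, mul_smul, hc1a]
        · rw [← mul_smul, hc1x', mul_smul, hc1a]
      | zero => simp
      | add y z _ _ ihy ihz => rw [smul_add, ihy, ihz]
      | neg y _ ihy => rw [smul_neg, ihy]
    have hk := kill h2 (hAQ hc1A) hfix
    obtain ⟨m, hm, hcm⟩ := hodd c1 (hAR hc1A)
    exact eq_one_of_pow (k := 1) (by rw [pow_one, pow_two]; exact hk) hm hcm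

include h2 ha ht htt in
theorem main [Finite Γ] {r : ℕ} [Fact r.Prime] (hr2 : r ≠ 2) (R : Subgroup Γ) (hR : IsPGroup r R)
    {v0 : V} (hv0 : t • v0 = v0 + a) {x P : Γ} (hP : P * P = t) (hx : x ∈ R)
    (hx' : P * x * P⁻¹ ∈ R)
    (hxi : t * x * t = x⁻¹) (hx1 : x ≠ 1) : False := by
  have hodd : ∀ y ∈ R, ∃ m, Odd m ∧ y ^ m = 1 := by
    intro y hy
    obtain ⟨k, hk⟩ := hR ⟨y, hy⟩
    refine ⟨r ^ k, ((Fact.out : r.Prime).odd_of_ne_two hr2).pow, ?_⟩
    simpa [Subtype.ext_iff] using hk
  have hIx : Inv t x := ⟨hxi, hodd x hx⟩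
  have htP : t * P = P * t := by rw [← hP]; group
  have htP' : t * P⁻¹ = P⁻¹ * t := by rw [← hP]; group
  have hPa : P • a = a := by
    have e : t • (P • v0) = P • v0 + P • a := by
      rw [← mul_smul, htP, mul_smul, hv0, smul_add]
    rcases ht (P • v0) with h | h
    · exfalso
      rw [h] at e
      have : P • a = 0 := (left_eq_add.1 e)
      exact ha ((smul_eq_zero_iff_eq _).1 this)
    · rw [h] at e
      exact (add_left_cancel e).symm
  have hxi' : t * (P * x * P⁻¹) * t = (P * x * P⁻¹)⁻¹ := by
    calc t * (P * x * P⁻¹) * t = (t * P) * x * (P⁻¹ * t) := by group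
      _ = (P * t) * x * (t * P⁻¹) := by rw [htP, htP']
      _ = P * (t * x * t) * P⁻¹ := by group
      _ = _ := by rw [hxi]; group
  have hx1' : P * x * P⁻¹ ≠ 1 := by
    intro h
    apply hx1
    calc x = P⁻¹ * (P * x * P⁻¹) * P := by group
      _ = 1 := by rw [h]; group
  have hta := t_a h2 ha ht
  -- t fixes x • a
  have hfix : t • (x • a) = x • a := by
    rcases fact5 h2 ha ht htt hr2 R hR hv0 hx hx' hxi hxi' hx1 hx1' with h | h
    · have h1 : P • (x • a) = x • a := by
        have : P * x = x * P := by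
          calc P * x = (P * x * P⁻¹) * P := by group
            _ = x * P := by rw [h]
        rw [← mul_smul, this, mul_smul, hPa]
      rw [← hP, mul_smul, h1, h1]
    · have h1 : P • (x • a) = x⁻¹ • a := by
        have : P * x = x⁻¹ * P := by
          calc P * x = (P * x * P⁻¹) * P := by group
            _ = x⁻¹ * P := by rw [h]
        rw [← mul_smul, this, mul_smul, hPa]
      have h2' : P • (x⁻¹ • a) = x • a := by
        have : P * x⁻¹ = x * P := by
          calc P * x⁻¹ = (P * x * P⁻¹)⁻¹ * P := by group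
            _ = x * P := by rw [h, inv_inv]
        rw [← mul_smul, this, mul_smul, hPa]
      rw [← hP, mul_smul, h1, h2']
  have h3 : t • (x • a) = x⁻¹ • a := by
    have : t * x = x⁻¹ * t := by
      calc t * x = (t * x * t) * t := by rw [mul_assoc (t * x), htt, mul_one]
        _ = _ := by rw [hxi]
    rw [← mul_smul, this, mul_smul, hta]
  have h4 : (x * x) • a = a := by
    rw [mul_smul, ← hfix, h3, smul_inv_smul]
  have h5 := fact3 h2 ha ht htt hIx hx1
  rw [h4] at h5
  have : x • a = 0 := (left_eq_add.1 h5)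
  exact ha ((smul_eq_zero_iff_eq _).1 this)

end

end Cfsg.Agent.Lib.Helper50Tv4
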