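import Cfsg.Agent.Lib.Helper50Tv4
import Cfsg.Agent.Lib.Helper1Fitting
import Cfsg.Agent.S0044

set_option autoImplicit false

namespace Cfsg.Agent.Lib.Helper50Tv4G

open Cfsg Cfsg.Agent.Lib.Helper1Fitting

theorem exists_core {S : Type*} [Group S] [Finite S] [Group.IsSolvable S]
    (hO2 : Cfsg.pCore 2 S = ⊥) (t : S) (ht : orderOf t = 2) :
    ∃ r : ℕ, r.Prime ∧ r ≠ 2 ∧ ∃ u ∈ Cfsg.pCore r S, t * u ≠ u * t := by
  by_contra hcon
  push Not at hcon
  have h1 : Cfsg.fittingSubgroup S ≤ Subgroup.centralizer ({t} : Set S) := by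
    rw [fitting_eq_iSup_pCore]
    refine iSup_le fun p => ?_
    by_cases hp : (p : ℕ) = 2
    · rw [hp, hO2]; exact bot_le
    · intro u hu
      rw [Subgroup.mem_centralizer_iff]
      intro k hk
      rw [Set.mem_singleton_iff] at hk
      rw [hk]
      exact hcon p p.2 hp u hu
  have h2 : t ∈ Subgroup.centralizer (Cfsg.fittingSubgroup S : Set S) := by
    rw [Subgroup.mem_centralizer_iff]
    intro k hk
    have := Subgroup.mem_centralizer_iff.1 (h1 hk) t rfl
    exact this.symm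
  have h3 : t ∈ Cfsg.fittingSubgroup S := Cfsg.Agent.S0044.result h2
  have h4 : (Nat.card (Cfsg.fittingSubgroup S)).Coprime 2 := by
    rw [fitting_eq_iSup_pCore]
    refine (coprime_card_iSup 2 (fun p : Nat.Primes => pCore (p : ℕ) S) fun p => ⟨pCore_normal _, ?_⟩).2
    by_cases hp : (p : ℕ) = 2
    · rw [hp, hO2]; simp
    · haveI : Fact (p : ℕ).Prime := ⟨p.2⟩
      obtain ⟨n, hn⟩ := IsPGroup.iff_card.mp (pCore_isPGroup (G := S) (p : ℕ))
      rw [hn]
      apply Nat.Coprime.pow_left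
      exact (Nat.coprime_primes p.2 Nat.prime_two).2 hp
  have h5 : orderOf (⟨t, h3⟩ : Cfsg.fittingSubgroup S) ∣ Nat.card (Cfsg.fittingSubgroup S) :=
    orderOf_dvd_natCard _
  rw [Subgroup.orderOf_mk, ht] at h5
  have := Nat.Coprime.eq_one_of_dvd h4.symm h5
  norm_num at this

end Cfsg.Agent.Lib.Helper50Tv4G
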