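import Mathlib

set_option autoImplicit false

namespace Cfsg.Agent.Lib.Helper50W162

open Equiv Subgroup

section perm
variable {α : Type*} [Fintype α] [DecidableEq α]

theorem cycleType_333 (hα : Fintype.card α = 9) (τ : Perm α) (h3 : τ ^ 3 = 1)
    (hfix : ∀ i, τ i ≠ i) : τ.cycleType = {3, 3, 3} := by
  have hne : Nonempty α := by
    rw [← Fintype.card_pos_iff, hα]; norm_num
  obtain ⟨i⟩ := hne
  have h1 : τ ≠ 1 := by
    intro h; apply hfix i; rw [h]; rfl
  have ho : orderOf τ = 3 := orderOf_eq_prime h3 h1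
  obtain ⟨n, hn⟩ := Perm.cycleType_prime_order (σ := τ) (by rw [ho]; norm_num)
  have hs : τ.support = Finset.univ := by
    ext j; simp [hfix j]
  have hsum := Perm.sum_cycleType τ
  rw [hs, Finset.card_univ, hα, hn, ho, Multiset.sum_replicate] at hsum
  have hn2 : n = 2 := by
    simp only [smul_eq_mul] at hsum; omega
  rw [hn, ho, hn2]; rfl

theorem card_centralizer_333 (hα : Fintype.card α = 9) (τ : Perm α) (h : τ.cycleType = {3, 3, 3}) :
    Nat.card (centralizer {τ}) = 162 := by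
  rw [Perm.nat_card_centralizer, h, hα]
  decide

end perm

section compl
variable {J : Type*} [CommGroup J] [Finite J]

theorem exists_inv_compl (hexp : ∀ a : J, a ^ 3 = 1) (τ : J ≃* J) (hτ : ∀ a, τ (τ a) = a)
    (c : J) (hc : τ c = c) (hc1 : c ≠ 1) :
    ∃ A : Subgroup J, (∀ a ∈ A, τ a ∈ A) ∧ c ∉ A ∧ ∀ g, ∃ a ∈ A, ∃ k : ℤ, g = a * c ^ k := by
  let S : Set (Subgroup J) := {M | (∀ a ∈ M, τ a ∈ M) ∧ c ∉ M}
  obtain ⟨A, hAS, hAmax⟩ := (Set.toFinite S).exists_maximal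
    ⟨⊥, by
      refine ⟨?_, fun h => hc1 (Subgroup.mem_bot.1 h)⟩
      intro a ha
      rw [Subgroup.mem_bot] at ha ⊢
      rw [ha, map_one]⟩
  obtain ⟨hAτ, hcA⟩ := hAS
  have h4 : ∀ g : J, g = (g ^ 2) ^ 2 := by
    intro g
    calc g = g ^ 3 * g := by rw [hexp, one_mul]
      _ = (g ^ 2) ^ 2 := by rw [← pow_mul, ← pow_succ]
  -- adjoining a τ-stable cyclic group
  have hadj : ∀ u : J, (τ u ∈ zpowers u) → u ∉ A → ∃ a ∈ A, ∃ k : ℤ, c = a * u ^ k := by
    intro u hu huA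
    by_contra hcon
    have hM : (A ⊔ zpowers u) ∈ S := by
      constructor
      · intro x hx
        rw [Subgroup.mem_sup] at hx ⊢
        obtain ⟨y, hy, z, hz, rfl⟩ := hx
        refine ⟨τ y, hAτ y hy, τ z, ?_, (map_mul τ y z).symm⟩
        obtain ⟨k, rfl⟩ := Subgroup.mem_zpowers_iff.1 hz
        rw [map_zpow]
        exact zpow_mem hu k
      · intro hx
        rw [Subgroup.mem_sup] at hx
        obtain ⟨y, hy, z, hz, hyz⟩ := hx
        obtain ⟨k, rfl⟩ := Subgroup.mem_zpowers_iff.1 hz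
        exact hcon ⟨y, hy, k, hyz.symm⟩
    have := hAmax hM le_sup_left
    exact huA (this (Subgroup.mem_sup_right (Subgroup.mem_zpowers u)))
  have hinv : ∀ u : J, τ u = u⁻¹ → u ∈ A := by
    intro u hu
    by_contra huA
    obtain ⟨a, ha, k, hk⟩ := hadj u (by rw [hu]; exact inv_mem (Subgroup.mem_zpowers u)) huA
    have h1 : c = τ a * (u ^ k)⁻¹ := by
      calc c = τ c := hc.symm
        _ = τ a * (u ^ k)⁻¹ := by rw [hk, map_mul, map_zpow, hu, inv_zpow]
    have h2 : c ^ 2 = a * τ a := by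
      calc c ^ 2 = c * c := pow_two c
        _ = (a * u ^ k) * (τ a * (u ^ k)⁻¹) := by rw [← hk, ← h1]
        _ = a * τ a := by
          rw [mul_mul_mul_comm, mul_inv_cancel, mul_one]
    apply hcA
    rw [h4 c, h2]
    exact pow_mem (mul_mem ha (hAτ a ha)) 2
  have hfix : ∀ u : J, τ u = u → ∃ a ∈ A, ∃ k : ℤ, u = a * c ^ k := by
    intro u hu
    by_cases huA : u ∈ A
    · exact ⟨u, huA, 0, by simp⟩
    obtain ⟨a, ha, k, hk⟩ := hadj u (by rw [hu]; exact Subgroup.mem_zpowers u) huA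
    have hu3 : u ^ (3 : ℤ) = 1 := by
      rw [show (3 : ℤ) = ((3 : ℕ) : ℤ) by norm_num, zpow_natCast, hexp]
    have hk' : u ^ k = u ^ (k % 3) := by
      conv_lhs => rw [← Int.mul_ediv_add_emod k 3, zpow_add, zpow_mul, hu3, one_zpow, one_mul]
    have hr0 : 0 ≤ k % 3 := Int.emod_nonneg _ (by norm_num)
    have hr3 : k % 3 < 3 := Int.emod_lt_of_pos _ (by norm_num)
    rw [hk'] at hk
    generalize k % 3 = r at hk hr0 hr3
    interval_cases r
    · exfalso; apply hcA; rw [hk]; simpa using ha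
    · refine ⟨a⁻¹, inv_mem ha, 1, ?_⟩
      rw [zpow_one] at hk ⊢
      rw [hk]; group
    · refine ⟨a, ha, -1, ?_⟩
      have hu2 : u ^ (2 : ℤ) = u⁻¹ := by
        have : u ^ (2 : ℤ) * u = 1 := by
          rw [← zpow_add_one]; exact hu3
        exact eq_inv_of_mul_eq_one_left this
      rw [hu2] at hk
      rw [hk, zpow_neg_one, mul_inv_rev, inv_inv, mul_comm u, mul_inv_cancel_left]
  refine ⟨A, hAτ, hcA, fun g => ?_⟩
  have hp : τ (g * τ g) = g * τ g := by rw [map_mul, hτ, mul_comm]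
  have hm : τ (g * (τ g)⁻¹) = (g * (τ g)⁻¹)⁻¹ := by
    rw [map_mul, map_inv, hτ, mul_inv_rev, inv_inv]
  obtain ⟨a, ha, k, hk⟩ := hfix _ hp
  have hmA := hinv _ hm
  refine ⟨a ^ 2 * (g * (τ g)⁻¹) ^ 2, mul_mem (pow_mem ha 2) (pow_mem hmA 2), 2 * k, ?_⟩
  have hg2 : g ^ 2 = (g * τ g) * (g * (τ g)⁻¹) := by
    rw [mul_mul_mul_comm, mul_inv_cancel, mul_one, pow_two]
  calc g = (g ^ 2) ^ 2 := h4 g
    _ = ((a * c ^ k) * (g * (τ g)⁻¹)) ^ 2 := by rw [hg2, ← hk]
    _ = a ^ 2 * (g * (τ g)⁻¹) ^ 2 * c ^ (2 * k) := by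
      rw [mul_pow, mul_pow, mul_right_comm, two_mul, zpow_add, pow_two (c ^ k)]

theorem index_compl (hexp : ∀ a : J, a ^ 3 = 1) (c : J) (A : Subgroup J) (hcA : c ∉ A)
    (hA : ∀ g, ∃ a ∈ A, ∃ k : ℤ, g = a * c ^ k) : A.index = 3 := by
  have h1 : ∀ x : J ⧸ A, x ∈ zpowers (c : J ⧸ A) := by
    intro x
    induction x using QuotientGroup.induction_on with
    | H g =>
      obtain ⟨a, ha, k, rfl⟩ := hA g
      rw [Subgroup.mem_zpowers_iff]
      refine ⟨k, ?_⟩
      rw [QuotientGroup.mk_mul, (QuotientGroup.eq_one_iff a).2 ha, one_mul, QuotientGroup.mk_zpow]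
  have h2 := orderOf_eq_card_of_forall_mem_zpowers h1
  have h3 : orderOf (c : J ⧸ A) = 3 := by
    apply orderOf_eq_prime
    · rw [← QuotientGroup.mk_pow, hexp]; rfl
    · intro h; exact hcA ((QuotientGroup.eq_one_iff c).1 h)
  rw [Subgroup.index, ← h2, h3]

end compl

end Cfsg.Agent.Lib.Helper50W162
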