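import Cfsg.Agent.Lib.Helper50W162
import Cfsg.Agent.Lib.Helper3PGroup

set_option autoImplicit false

namespace Cfsg.Agent.Lib.Helper50W162G

open Subgroup Cfsg.Agent.Lib.Helper50W162

theorem exists_inv_compl' {J : Type*} [inst : Group J] [Finite J] (hcomm : ∀ a b : J, a * b = b * a)
    (hexp : ∀ a : J, a ^ 3 = 1) (τ : J ≃* J) (hτ : ∀ a, τ (τ a) = a)
    (c : J) (hc : τ c = c) (hc1 : c ≠ 1) :
    ∃ A : Subgroup J, (∀ a ∈ A, τ a ∈ A) ∧ c ∉ A ∧ A.index = 3 := by
  obtain ⟨A, h1, h2, h3⟩ := @exists_inv_compl J { inst with mul_comm := hcomm } _ hexp τ hτ c hc hc1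
  exact ⟨A, h1, h2, @index_compl J { inst with mul_comm := hcomm } _ hexp c A h2 h3⟩

variable {G : Type*} [Group G] [Finite G]

theorem card_sylow3 (hG : Nat.card G = 162) (S : Sylow 3 G) : Nat.card S = 81 := by
  haveI : Fact (Nat.Prime 3) := ⟨by norm_num⟩
  obtain ⟨n, hn⟩ := IsPGroup.iff_card.mp S.isPGroup'
  have h1 := (S : Subgroup G).card_mul_index
  have h2 : ¬ 3 ∣ (S : Subgroup G).index := S.not_dvd_index
  rw [hG] at h1
  have hn' : Nat.card (S : Subgroup G) = 3 ^ n := hn
  rw [hn'] at h1
  have hlt : n < 5 := by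
    by_contra hcon
    push Not at hcon
    have : 3 ^ 5 ≤ 3 ^ n := Nat.pow_le_pow_right (by norm_num) hcon
    have hpos : 0 < (S : Subgroup G).index := Nat.pos_of_ne_zero Subgroup.index_ne_zero_of_finite
    nlinarith
  rw [hn]
  interval_cases n
  · exfalso; apply h2; exact ⟨54, by omega⟩
  · exfalso; apply h2; exact ⟨18, by omega⟩
  · exfalso; apply h2; exact ⟨6, by omega⟩
  · exfalso; apply h2; exact ⟨2, by omega⟩
  · norm_num

theorem card_sylow2 (hG : Nat.card G = 162) (T : Sylow 2 G) : Nat.card T = 2 := by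
  haveI : Fact (Nat.Prime 2) := ⟨by norm_num⟩
  obtain ⟨n, hn⟩ := IsPGroup.iff_card.mp T.isPGroup'
  have h1 := (T : Subgroup G).card_mul_index
  have h2 : ¬ 2 ∣ (T : Subgroup G).index := T.not_dvd_index
  rw [hG] at h1
  have hn' : Nat.card (T : Subgroup G) = 2 ^ n := hn
  rw [hn'] at h1
  rw [hn]
  rcases n with _ | _ | n
  · exfalso; apply h2; exact ⟨81, by omega⟩
  · norm_num
  · exfalso
    have : 4 ∣ 162 := ⟨2 ^ n * (T : Subgroup G).index, by rw [← h1]; ring⟩
    norm_num at this

theorem exists_H (hG : Nat.card G = 162)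
    (S : Sylow 3 G) (T : Sylow 2 G) (J : Subgroup G) [hJn : J.Normal] (hJcomm : IsMulCommutative J)
    (hJexp : ∀ a ∈ J, a ^ 3 = 1) (hJcard : Nat.card J = 27)
    (Z : Subgroup G) (hZ : Z = (S : Subgroup G) ⊓ Subgroup.centralizer ((S : Subgroup G) : Set G))
    (hZcard : Nat.card Z = 3)
    (hZT : Z ≤ Subgroup.centralizer ((T : Subgroup G) : Set G))
    (hST : (S : Subgroup G) ⊓ Subgroup.centralizer ((T : Subgroup G) : Set G) ≠ S) :
    ∃ (c : G) (H : Subgroup G), c ^ 3 = 1 ∧ (∀ g, g * c = c * g) ∧ c ∉ H ∧ H.index = 9 ∧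
      H.normalCore = ⊥ := by
  haveI : Fact (Nat.Prime 3) := ⟨by norm_num⟩
  haveI : Fact (Nat.Prime 2) := ⟨by norm_num⟩
  have hS81 := card_sylow3 hG S
  have hT2 := card_sylow2 hG T
  have hSi : (S : Subgroup G).index = 2 := by
    have := (S : Subgroup G).card_mul_index
    have h' : Nat.card (S : Subgroup G) = 81 := hS81
    rw [hG, h'] at this; omega
  haveI hSn : (S : Subgroup G).Normal := Subgroup.normal_of_index_eq_two hSi
  -- the involution t
  obtain ⟨t0, ht0, -⟩ := (Nat.card_eq_two_iff' (1 : T)).1 hT2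
  set t : G := (t0 : G) with ht
  have htT : t ∈ (T : Subgroup G) := t0.2
  have ht1 : t ≠ 1 := by
    intro h; apply ht0; exact Subtype.ext h
  have htt : t * t = 1 := by
    have : t0 ^ 2 = 1 := by
      have h : t0 ^ Nat.card (T : Subgroup G) = 1 := pow_card_eq_one'
      have h' : Nat.card (T : Subgroup G) = 2 := hT2
      rwa [h'] at h
    have h2 := congrArg Subtype.val this
    rw [pow_two] at h2
    exact h2
  have htinv : t⁻¹ = t := inv_eq_of_mul_eq_one_left htt
  have hpow81 : ∀ s ∈ (S : Subgroup G), s ^ 81 = 1 := by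
    intro s hs
    have : (⟨s, hs⟩ : S) ^ 81 = 1 := by rw [← hS81]; exact pow_card_eq_one'
    exact congrArg Subtype.val this
  have htS : t ∉ (S : Subgroup G) := by
    intro h
    apply ht1
    have h81 := hpow81 t h
    calc t = (t * t) ^ 40 * t := by rw [htt]; simp
      _ = t ^ 81 := by rw [← pow_two, ← pow_mul, ← pow_succ]
      _ = 1 := h81
  have hTt : ∀ x ∈ (T : Subgroup G), x = 1 ∨ x = t := by
    intro x hx
    by_cases hx1 : x = 1
    · left; exact hx1
    · right
      obtain ⟨y, _, hy⟩ := (Nat.card_eq_two_iff' (1 : T)).1 hT2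
      have e1 : (⟨x, hx⟩ : T) = y := hy _ (fun h => hx1 (congrArg Subtype.val h))
      have e2 : t0 = y := hy _ ht0
      exact congrArg Subtype.val (e1.trans e2.symm)
  -- J ≤ S
  have hJp : IsPGroup 3 J := IsPGroup.of_card (n := 3) (by rw [hJcard]; norm_num)
  have hJS : J ≤ (S : Subgroup G) := by
    have h1 : IsPGroup 3 (J ⊔ (S : Subgroup G) : Subgroup G) :=
      IsPGroup.to_sup_of_normal_left hJp S.isPGroup'
    have h2 := S.is_maximal' h1 le_sup_right
    rw [← h2]; exact le_sup_left
  -- c
  have hJne : J.subgroupOf (S : Subgroup G) ≠ ⊥ := by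
    intro h
    rw [Subgroup.subgroupOf_eq_bot, disjoint_iff, inf_eq_left.2 hJS] at h
    rw [h] at hJcard
    simp at hJcard
  obtain ⟨b, hbJ, hbc, hb1⟩ := Cfsg.Agent.Lib.Helper3PGroup.normal_inf_center_ne_bot
    (P := (S : Subgroup G)) S.isPGroup' (J.subgroupOf (S : Subgroup G)) hJne
  set c : G := (b : G) with hc
  have hcJ : c ∈ J := hbJ
  have hc1 : c ≠ 1 := fun h => hb1 (Subtype.ext h)
  have hcS : ∀ s ∈ (S : Subgroup G), s * c = c * s := by
    intro s hs
    have := Subgroup.mem_center_iff.1 hbc ⟨s, hs⟩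
    exact congrArg Subtype.val this
  have hcZ : c ∈ Z := by
    rw [hZ]
    refine Subgroup.mem_inf.2 ⟨b.2, ?_⟩
    rw [Subgroup.mem_centralizer_iff]
    intro s hs
    exact hcS s hs
  have hct : t * c = c * t := by
    have := Subgroup.mem_centralizer_iff.1 (hZT hcZ) t htT
    exact this
  have hc3 : c ^ 3 = 1 := hJexp c hcJ
  have hcG : ∀ g, g * c = c * g := by
    intro g
    by_cases hg : g ∈ (S : Subgroup G)
    · exact hcS g hg
    · have hgt : g * t ∈ (S : Subgroup G) := by
        rw [Subgroup.mul_mem_iff_of_index_two hSi]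
        exact ⟨fun h => absurd h hg, fun h => absurd h htS⟩
      have h1 := hcS _ hgt
      calc g * c = (g * t) * (t * c) := by
            rw [mul_assoc, ← mul_assoc t t, htt, one_mul]
        _ = (g * t) * (c * t) := by rw [hct]
        _ = ((g * t) * c) * t := by simp only [mul_assoc]
        _ = (c * (g * t)) * t := by rw [h1]
        _ = c * g := by rw [mul_assoc, mul_assoc, htt, mul_one]
  have hZc : ∀ x ∈ Z, x ≠ 1 → c ∈ zpowers x := by
    intro x hx hx1
    have h1 : zpowers x ≤ Z := by rw [Subgroup.zpowers_le]; exact hx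
    have h2 : Nat.card (zpowers x) = 3 := by
      have hd : Nat.card (zpowers x) ∣ 3 := hZcard ▸ Subgroup.card_dvd_of_le h1
      rcases (Nat.dvd_prime (by norm_num : Nat.Prime 3)).1 hd with h | h
      · exfalso
        rw [Subgroup.card_eq_one, Subgroup.zpowers_eq_bot] at h
        exact hx1 h
      · exact h
    have h3 : zpowers x = Z := Subgroup.eq_of_le_of_card_ge h1 (by rw [h2, hZcard])
    rw [h3]; exact hcZ
  -- the invariant complement
  obtain ⟨A, hAτ, hcA, hAi⟩ := exists_inv_compl' (J := J)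
    (fun a b => hJcomm.is_comm.comm a b)
    (fun a => Subtype.ext (hJexp a a.2)) (MulAut.conjNormal t : MulAut J)
    (by
      intro a
      apply Subtype.ext
      simp only [MulAut.conjNormal_apply, htinv]
      calc t * (t * a * t) * t = (t * t) * a * (t * t) := by group
        _ = a := by rw [htt]; simp)
    ⟨c, hcJ⟩
    (by
      apply Subtype.ext
      simp only [MulAut.conjNormal_apply]
      rw [hct]; group)
    (fun h => hc1 (congrArg Subtype.val h))
  set A' := A.map J.subtype with hA'
  have hA'J : A' ≤ J := by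
    rintro _ ⟨a, _, rfl⟩; exact a.2
  have hA't : ∀ a ∈ A', t * a * t ∈ A' := by
    rintro _ ⟨a, ha, rfl⟩
    refine ⟨_, hAτ a ha, ?_⟩
    simp [MulAut.conjNormal_apply, htinv]
  have hcA' : c ∉ A' := by
    rintro ⟨a, ha, hac⟩
    apply hcA
    have : a = ⟨c, hcJ⟩ := Subtype.ext hac
    rwa [← this]
  have hA'card : Nat.card A' = 9 := by
    rw [hA', Subgroup.card_map_of_injective J.subtype_injective]
    have := A.card_mul_index
    rw [hAi, hJcard] at this; omega
  have hA'i : A'.index = 18 := by
    have := A'.card_mul_index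
    rw [hA'card, hG] at this; omega
  have htA' : t ∉ A' := fun h => htS (hJS (hA'J h))
  let H : Subgroup G :=
    { carrier := {g | g ∈ A' ∨ g * t ∈ A'}
      one_mem' := Or.inl (one_mem _)
      mul_mem' := by
        rintro x y (hx | hx) (hy | hy)
        · exact Or.inl (mul_mem hx hy)
        · right; rw [mul_assoc]; exact mul_mem hx hy
        · right
          have : x * y * t = (x * t) * (t * y * t) := by
            calc x * y * t = x * 1 * y * t := by group
              _ = x * (t * t) * y * t := by rw [htt]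
              _ = _ := by group
          rw [this]; exact mul_mem hx (hA't y hy)
        · left
          have : x * y = (x * t) * (t * (y * t) * t) := by
            calc x * y = x * 1 * y * 1 := by group
              _ = x * (t * t) * y * (t * t) := by rw [htt]
              _ = _ := by group
          rw [this]; exact mul_mem hx (hA't _ hy)
      inv_mem' := by
        rintro x (hx | hx)
        · exact Or.inl (inv_mem hx)
        · right
          have : x⁻¹ * t = t * (x * t)⁻¹ * t := by
            rw [mul_inv_rev, htinv]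
            calc x⁻¹ * t = 1 * x⁻¹ * t := by group
              _ = (t * t) * x⁻¹ * t := by rw [htt]
              _ = _ := by group
          rw [this]; exact hA't _ (inv_mem hx) }
  have hHmem : ∀ g, g ∈ H ↔ (g ∈ A' ∨ g * t ∈ A') := fun g => Iff.rfl
  have hA'H : A' ≤ H := fun g hg => Or.inl hg
  have htH : t ∈ H := Or.inr (by rw [htt]; exact one_mem _)
  have hrel : A'.relIndex H = 2 := by
    rw [Subgroup.relIndex, Subgroup.index_eq_two_iff]
    refine ⟨⟨t, htH⟩, fun b => ?_⟩
    simp only [Subgroup.mem_subgroupOf, Subgroup.coe_mul]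
    rcases (hHmem b).1 b.2 with hb | hb
    · right
      refine ⟨hb, fun h => htA' ?_⟩
      have : t = (b : G)⁻¹ * (b * t) := by group
      rw [this]; exact mul_mem (inv_mem hb) h
    · left
      refine ⟨hb, fun h => htA' ?_⟩
      have : t = (b : G)⁻¹ * (b * t) := by group
      rw [this]; exact mul_mem (inv_mem h) hb
  have hHi : H.index = 9 := by
    have := Subgroup.relIndex_mul_index hA'H
    rw [hrel, hA'i] at this; omega
  have hcH : c ∉ H := by
    rintro (h | h)
    · exact hcA' h
    · apply htS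
      have h1 : c * t ∈ (S : Subgroup G) := hJS (hA'J h)
      have : t = c⁻¹ * (c * t) := by group
      rw [this]; exact mul_mem (inv_mem (hJS hcJ)) h1
  refine ⟨c, H, hc3, hcG, hcH, hHi, ?_⟩
  by_contra hK
  set K := H.normalCore with hKdef
  haveI hKn : K.Normal := Subgroup.normalCore_normal H
  have hKH : K ≤ H := Subgroup.normalCore_le H
  by_cases hKS : K.subgroupOf (S : Subgroup G) = ⊥
  · -- K ∩ S = 1
    rw [Subgroup.subgroupOf_eq_bot, disjoint_iff] at hKS
    obtain ⟨k0, hk0⟩ := (Subgroup.ne_bot_iff_exists_ne_one).1 hK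
    obtain ⟨k, hk, hk1⟩ : ∃ k ∈ K, k ≠ 1 := ⟨(k0 : G), k0.2, fun h => hk0 (Subtype.ext h)⟩
    have hkS : k ∉ (S : Subgroup G) := by
      intro h
      have : k ∈ K ⊓ (S : Subgroup G) := ⟨hk, h⟩
      rw [hKS, Subgroup.mem_bot] at this
      exact hk1 this
    have hkc : ∀ s ∈ (S : Subgroup G), k * s = s * k := by
      intro s hs
      have h1 : k * s * k⁻¹ * s⁻¹ ∈ K ⊓ (S : Subgroup G) := by
        refine Subgroup.mem_inf.2 ⟨?_, ?_⟩
        · have : k * s * k⁻¹ * s⁻¹ = k * (s * k⁻¹ * s⁻¹) := by group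
          rw [this]; exact mul_mem hk (hKn.conj_mem _ (inv_mem hk) s)
        · exact mul_mem (hSn.conj_mem s hs k) (inv_mem hs)
      rw [hKS, Subgroup.mem_bot] at h1
      calc k * s = (k * s * k⁻¹ * s⁻¹) * (s * k) := by group
        _ = s * k := by rw [h1, one_mul]
    have hk2 : k * k = 1 := by
      have h1 : k ^ 2 ∈ (S : Subgroup G) := Subgroup.sq_mem_of_index_two hSi k
      have h2 : k ^ 2 ∈ K ⊓ (S : Subgroup G) := ⟨pow_mem hk 2, h1⟩
      rw [hKS, Subgroup.mem_bot, pow_two] at h2
      exact h2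
    have hkt : k * t ∈ (S : Subgroup G) := by
      rw [Subgroup.mul_mem_iff_of_index_two hSi]
      exact ⟨fun h => absurd h hkS, fun h => absurd h htS⟩
    have hcomm : k * t = t * k := by
      have h1 := hkc _ hkt
      -- k * (k * t) = (k * t) * k
      calc k * t = k⁻¹ * (k * (k * t)) := by group
        _ = k⁻¹ * ((k * t) * k) := by rw [h1]
        _ = t * k := by group
    have hkt1 : k * t = 1 := by
      have h2 : (k * t) * (k * t) = 1 := by
        calc (k * t) * (k * t) = k * (t * k) * t := by group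
          _ = k * (k * t) * t := by rw [hcomm]
          _ = (k * k) * (t * t) := by group
          _ = 1 := by rw [hk2, htt, one_mul]
      have h81 := hpow81 _ hkt
      calc k * t = ((k * t) * (k * t)) ^ 40 * (k * t) := by rw [h2]; simp
        _ = (k * t) ^ 81 := by rw [← pow_two, ← pow_mul, ← pow_succ]
        _ = 1 := h81
    have hkt' : k = t := by
      calc k = (k * t) * t := by rw [mul_assoc, htt, mul_one]
        _ = t := by rw [hkt1, one_mul]
    apply hST
    rw [inf_eq_left]
    intro s hs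
    rw [Subgroup.mem_centralizer_iff]
    intro x hx
    rcases hTt x hx with rfl | rfl
    · simp
    · rw [← hkt']; exact hkc s hs
  · obtain ⟨b', hb'K, hb'c, hb'1⟩ := Cfsg.Agent.Lib.Helper3PGroup.normal_inf_center_ne_bot
      (P := (S : Subgroup G)) S.isPGroup' (K.subgroupOf (S : Subgroup G)) hKS
    have hb'Z : (b' : G) ∈ Z := by
      rw [hZ]
      refine Subgroup.mem_inf.2 ⟨b'.2, ?_⟩
      rw [Subgroup.mem_centralizer_iff]
      intro s hs
      have := Subgroup.mem_center_iff.1 hb'c ⟨s, hs⟩
      exact congrArg Subtype.val this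
    have h1 := hZc _ hb'Z (fun h => hb'1 (Subtype.ext h))
    have h2 : zpowers (b' : G) ≤ K := by
      rw [Subgroup.zpowers_le]; exact hb'K
    exact hcH (hKH (h2 h1))

end Cfsg.Agent.Lib.Helper50W162G
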