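import Cfsg.Agent.Lib.Helper52Sol5
import Cfsg.Agent.Lib.Helper52FF5

set_option autoImplicit false

namespace Cfsg.Agent.Lib.Helper52Sol6

open Subgroup
open scoped commutatorElement
open Cfsg.Agent.Lib.Helper52Basic Cfsg.Agent.Lib.Helper52Subnormal Cfsg.Agent.Lib.Helper52FStar
open Cfsg.Agent.Lib.Helper28Comp Cfsg.Agent.Lib.Helper52Sol2 Cfsg.Agent.Lib.Helper52Sol3
open Cfsg.Agent.Lib.Helper13Thompson2

variable {G : Type*} [Group G]

/-- The case `C_G(O_2(G)) ≤ O_2(G)`: `J_e(S)` is normal. -/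
theorem thompson_normal_of_constrained [Finite G]
    (hS4 : ¬ Cfsg.Involves (Equiv.Perm (Fin 4)) G) (S : Sylow 2 G)
    (hcl : ∀ x ∈ (S : Subgroup G), ∀ y ∈ (S : Subgroup G), ⁅x, y⁆ ∈ centralizer ((S : Subgroup G) : Set G))
    (hCU : centralizer (Cfsg.pCore 2 G : Set G) ≤ Cfsg.pCore 2 G) :
    (Cfsg.thompsonSubgroupOf 2 (S : Subgroup G)).Normal := by
  have : Fact (Nat.Prime 2) := ⟨Nat.prime_two⟩
  set U := Cfsg.pCore 2 G with hU
  have hUn : U.Normal := Subgroup.sSup_normal _ (fun _ h => h.1)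
  have hUp : IsPGroup 2 U := Cfsg.Agent.Lib.Helper28Fitting.pCore_isPGroup 2
  have hUS : U ≤ S := pCore_le_sylow S
  set V := omZ U with hV
  have hVn : V.Normal := omZ_normal U
  have hVel : Cfsg.IsElementaryAbelian 2 V := omZ_elementary U
  have hVU : V ≤ U := omZ_le U
  set D := cSec U V with hD
  have hDn : D.Normal := cSec_normal U V
  set K := D ⊓ centralizer (V : Set G) with hK
  have hKp : IsPGroup 2 K := isPGroup_chain_stab U V (hUp.to_le hVU) (hUp.to_le hCU)
  have hKn : K.Normal := inferInstance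
  have hKU : K ≤ U := le_pCore hKn hKp
  have hNV : normalizer (V : Set G) = ⊤ := normalizer_eq_top_iff.mpr hVn
  have hCVn : (centralizer (V : Set G)).Normal := inferInstance
  have hkey : ∀ A ∈ relMax 2 (S : Subgroup G), A ≤ U := by
    intro A hA
    have hAS : A ≤ S := hA.1
    have hAel := hA.2.1
    have hAD : A ≤ D := by
      intro a ha
      rw [hD, mem_cSec]
      refine ⟨by rw [hNV]; exact mem_top _, ?_⟩
      intro u hu
      have hc := hcl u (hUS hu) a (hAS ha)
      rw [hV, mem_omZ]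
      have hcU : ⁅u, a⁆ ∈ U := by
        rw [commutatorElement_def]
        have := hUn.conj_mem u⁻¹ (U.inv_mem hu) a
        have h2 := U.mul_mem hu this
        have h3 : u * (a * u⁻¹ * a⁻¹) = u * a * u⁻¹ * a⁻¹ := by group
        rwa [h3] at h2
      refine ⟨hcU, centralizer_le (by exact_mod_cast hUS) hc, ?_⟩
      have ha2 : a * a = 1 := by have := hAel.2 a ha; rwa [pow_two] at this
      have hca : ⁅u, a⁆ * a = a * ⁅u, a⁆ := ((mem_centralizer_iff.mp hc) a (hAS ha)).symm
      have hainv : a⁻¹ = a := inv_eq_of_mul_eq_one_left ha2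
      have h5 : ⁅u, a⁆ * ⁅u, a⁆ = ⁅u, a⁆ * (a * ⁅u, a⁆ * a⁻¹) := by
        rw [← hca]; group
      rw [h5, commutatorElement_def, hainv]
      calc u * a * u⁻¹ * a * (a * (u * a * u⁻¹ * a) * a)
          = u * a * u⁻¹ * (a * a) * u * a * u⁻¹ * (a * a) := by group
        _ = u * a * u⁻¹ * 1 * u * a * u⁻¹ * 1 := by rw [ha2]
        _ = u * (a * a) * u⁻¹ := by group
        _ = 1 := by rw [ha2]; group
    by_contra hAU
    have hAC : ¬ A ≤ centralizer (V : Set G) := fun h => hAU ((le_inf hAD h).trans hKU)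
    apply hS4
    have hA2 : IsPGroup 2 A := S.isPGroup'.to_le hAS
    refine Cfsg.Agent.Lib.Helper52FF5.ff2_abelian V D A hVel (by rw [hNV]; exact le_top) hKp ?_ ?_
      hAD hA2 hAC (relMax_best hA (hVU.trans hUS) hVel)
    · intro R hRD hDR hRp
      have h1 : Sn R ⊤ := (NormIn.sn ⟨hRD, hDR⟩).trans
        (NormIn.sn ⟨le_top, by rw [normalizer_eq_top_iff.mpr hDn]⟩)
      have h2 : R ≤ U := subnormal_pGroup_le_pCore (sn_top_iff.mp h1) hRp
      exact h2.trans (le_centralizer_omZ U)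
    · intro P _ hP2
      obtain ⟨Q, hQ⟩ := hP2.exists_le_sylow
      obtain ⟨g, rfl⟩ := MulAction.exists_smul_eq G S Q
      rw [commutator_le]
      intro x hx y hy
      have hx' : g⁻¹ * x * g ∈ (S : Subgroup G) := by
        have := hQ hx
        rw [Cfsg.Agent.Lib.Helper40Sylow.sylow_smul_eq_cj, Cfsg.Agent.Lib.Helper40Sylow.mem_cj]
          at this
        exact this
      have hy' : g⁻¹ * y * g ∈ (S : Subgroup G) := by
        have := hQ hy
        rw [Cfsg.Agent.Lib.Helper40Sylow.sylow_smul_eq_cj, Cfsg.Agent.Lib.Helper40Sylow.mem_cj]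
          at this
        exact this
      have h1 := hcl _ hx' _ hy'
      have h2 : ⁅g⁻¹ * x * g, g⁻¹ * y * g⁆ ∈ centralizer (V : Set G) :=
        centralizer_le (by exact_mod_cast hVU.trans hUS) h1
      have h3 := hCVn.conj_mem _ h2 g
      have h4 : g * ⁅g⁻¹ * x * g, g⁻¹ * y * g⁆ * g⁻¹ = ⁅x, y⁆ := by
        simp only [commutatorElement_def]; group
      rwa [h4] at h3
  have hJU : Cfsg.thompsonSubgroupOf 2 (S : Subgroup G) ≤ U := by
    rw [thompsonOf_eq]
    exact sSup_le hkey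
  rw [← thompsonOf_eq_of_le hUS hJU, ← normalizer_eq_top_iff, eq_top_iff]
  refine le_trans ?_ (normalizer_le_normalizer_thompsonOf 2 U)
  rw [normalizer_eq_top_iff.mpr hUn]

end Cfsg.Agent.Lib.Helper52Sol6
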