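import Cfsg.Agent.Lib.Helper43SpDefs
import Cfsg.Agent.Lib.Helper21SpKh
import Cfsg.Agent.Lib.Helper84SpXval
import Cfsg.Agent.Lib.Helper10BPSlgen

set_option autoImplicit false

namespace Cfsg.Agent.Lib.Helper77SpCpikap

open Matrix Cfsg.Agent.Lib.Helper43St Cfsg.Agent.Lib.Helper43Sp

variable {m : ℕ} {F : Type*} [Field F] {P : Type*} [Group P] (S : CSys m F P)
  (κ : (Fin m → SpecialLinearGroup (Fin 2) F) →* P)

/-- two homomorphisms from `SL_2(F)` which agree on the transvections are equal -/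
theorem sl2_hom_ext {G : Type*} [Group G] (f g : SpecialLinearGroup (Fin 2) F →* G)
    (h01 : ∀ t, f (tv 0 1 t) = g (tv 0 1 t)) (h10 : ∀ t, f (tv 1 0 t) = g (tv 1 0 t)) : f = g := by
  apply MonoidHom.eq_of_eqOn_dense (Helper10BPSlgen.sl_gen (le_refl 2) F)
  rintro _ ⟨i, j, t, hij, rfl⟩
  fin_cases i <;> fin_cases j
  · exact absurd rfl hij
  · exact h01 t
  · exact h10 t
  · exact absurd rfl hij

theorem pi_kap (hκ : ∀ i t, κ (Pi.mulSingle i (tv 0 1 t)) = S.x (Sum.inl i) (Sum.inr i) t ∧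
        κ (Pi.mulSingle i (tv 1 0 t)) = S.x (Sum.inr i) (Sum.inl i) t)
    (z : Fin m → SpecialLinearGroup (Fin 2) F) :
    ((S.π (κ z) : Sp m F) : Matrix (I m) (I m) F) = Km z := by
  obtain ⟨Kh, hKh⟩ := Helper21SpKh.exists_kh m F
  have key : S.π.comp κ = Kh := by
    apply MonoidHom.pi_ext
    intro i
    have hh : ((S.π.comp κ).comp (MonoidHom.mulSingle (fun _ : Fin m => SpecialLinearGroup (Fin 2) F) i))
        = Kh.comp (MonoidHom.mulSingle (fun _ : Fin m => SpecialLinearGroup (Fin 2) F) i) := ?_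
    · intro x
      exact DFunLike.congr_fun hh x
    apply sl2_hom_ext
    · intro t
      change S.π (κ (Pi.mulSingle i (tv 0 1 t))) = Kh (Pi.mulSingle i (tv 0 1 t))
      rw [(hκ i t).1, S.hπ _ _ _ (by simp)]
      apply Subtype.ext
      rw [hKh, (Helper21SpKh.Km_X i t).1, Helper84SpXval.X_val _ _ (by simp)]
    · intro t
      change S.π (κ (Pi.mulSingle i (tv 1 0 t))) = Kh (Pi.mulSingle i (tv 1 0 t))
      rw [(hκ i t).2, S.hπ _ _ _ (by simp)]
      apply Subtype.ext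
      rw [hKh, (Helper21SpKh.Km_X i t).2, Helper84SpXval.X_val _ _ (by simp)]
  rw [← hKh, ← key]
  rfl

end Cfsg.Agent.Lib.Helper77SpCpikap
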