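import Cfsg.Agent.Lib.Helper43SpDefs
import Cfsg.Agent.Lib.Helper77SpCpikap

set_option autoImplicit false

/-! Project 243, piece `chinj`. -/

namespace Cfsg.Agent.Lib.Helper52SpChinj

open Matrix Cfsg.Agent.Lib.Helper43St Cfsg.Agent.Lib.Helper43Sp

variable {m : ℕ} {F : Type*} [Field F] {P : Type*} [Group P] (S : CSys m F P)

variable (κ : (Fin m → SpecialLinearGroup (Fin 2) F) →* P)

theorem eq_one_of_Km (z : Fin m → SpecialLinearGroup (Fin 2) F) (h : Km z = 1) : z = 1 := by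
  funext i
  have h00 := congrFun (congrFun h (Sum.inl i)) (Sum.inl i)
  have h01 := congrFun (congrFun h (Sum.inl i)) (Sum.inr i)
  have h10 := congrFun (congrFun h (Sum.inr i)) (Sum.inl i)
  have h11 := congrFun (congrFun h (Sum.inr i)) (Sum.inr i)
  simp only [Km, Matrix.fromBlocks_apply₁₁, Matrix.fromBlocks_apply₁₂, Matrix.fromBlocks_apply₂₁,
    Matrix.fromBlocks_apply₂₂, Matrix.diagonal_apply_eq, Matrix.one_apply_eq] at h00 h01 h10 h11
  have h01' : z i 0 1 = 0 := by simpa using h01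
  have h10' : z i 1 0 = 0 := by simpa using h10
  ext a b
  fin_cases a <;> fin_cases b
  · simpa using h00
  · simpa using h01'
  · simpa using h10'
  · simpa using h11

-- piece `chinj`
theorem h_inj (hκ : ∀ i t, κ (Pi.mulSingle i (tv 0 1 t)) = S.x (Sum.inl i) (Sum.inr i) t ∧
        κ (Pi.mulSingle i (tv 1 0 t)) = S.x (Sum.inr i) (Sum.inl i) t)
    (η : P) (hη : η ∈ S.H) (h : S.π η = 1)
    (h_form : ∀ η : P, η ∈ S.H → ∃ z, η = κ z) : η = 1 := by
  obtain ⟨z, rfl⟩ := h_form η hη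
  have h1 := Cfsg.Agent.Lib.Helper77SpCpikap.pi_kap S κ hκ z
  rw [h] at h1
  have h2 : Km z = 1 := h1.symm
  rw [eq_one_of_Km z h2, map_one]

end Cfsg.Agent.Lib.Helper52SpChinj
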