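import Cfsg.Agent.Lib.Helper43SpDefs
import Cfsg.Agent.Lib.Helper84SpXval
import Cfsg.Agent.Lib.Helper36SpXbasic
import Cfsg.Agent.Lib.Helper36SpDval

set_option autoImplicit false

/-! Project 243, piece `cut`. -/

namespace Cfsg.Agent.Lib.Helper52SpCut

open Matrix Cfsg.Agent.Lib.Helper43St Cfsg.Agent.Lib.Helper43Sp

variable {m : ℕ} {F : Type*} [Field F] {P : Type*} [Group P] (S : CSys m F P)

/-- upper unitriangular with respect to `rk` -/
def UT (M : Matrix (I m) (I m) F) : Prop :=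
  (∀ a b, rk b < rk a → M a b = 0) ∧ (∀ a, M a a = 1)

theorem rk_inj : Function.Injective (rk : I m → ℕ) := by
  intro a b h
  rcases a with a | a <;> rcases b with b | b <;> simp only [rk, Sum.elim_inl, Sum.elim_inr] at h
  · exact congrArg _ (Fin.ext h)
  · have := a.2; have := b.2; omega
  · have := a.2; have := b.2; omega
  · have := a.2; have := b.2
    exact congrArg _ (Fin.ext (by omega))

theorem rk_lt (a : I m) : rk a < 2 * m := by
  rcases a with i | i <;> simp only [rk, Sum.elim_inl, Sum.elim_inr] <;> have := i.2 <;> omega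

theorem rk_ng (a : I m) : rk (ng a) = 2 * m - 1 - rk a := by
  rcases a with i | i <;> simp only [rk, ng, Sum.swap_inl, Sum.swap_inr, Sum.elim_inl, Sum.elim_inr] <;>
    have := i.2 <;> omega

theorem UT_one : UT (1 : Matrix (I m) (I m) F) :=
  ⟨fun a b h => Matrix.one_apply_ne (fun e => by rw [e] at h; omega), fun a => Matrix.one_apply_eq a⟩

theorem UT_mul {M N : Matrix (I m) (I m) F} (hM : UT M) (hN : UT N) : UT (M * N) := by
  constructor
  · intro a b hab
    rw [Matrix.mul_apply]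
    apply Finset.sum_eq_zero
    intro c _
    rcases Nat.lt_or_ge (rk c) (rk a) with h | h
    · rw [hM.1 a c h, zero_mul]
    · rw [hN.1 c b (by omega), mul_zero]
  · intro a
    rw [Matrix.mul_apply, Finset.sum_eq_single a]
    · rw [hM.2, hN.2, mul_one]
    · intro c _ hc
      have hne : rk c ≠ rk a := fun e => hc (rk_inj e)
      rcases Nat.lt_or_ge (rk c) (rk a) with h | h
      · rw [hM.1 a c h, zero_mul]
      · rw [hN.1 c a (by omega), mul_zero]
    · intro h
      exact absurd (Finset.mem_univ a) h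

theorem UT_Xm (a b : I m) (h : rk a < rk b) (t : F) : UT (Xm a b t) := by
  rw [Cfsg.Agent.Lib.Helper84SpXval.Xm_eq]
  have hb := rk_lt b
  constructor
  · intro r s hrs
    have hne : r ≠ s := fun e => by rw [e] at hrs; omega
    rw [Matrix.sub_apply, Matrix.add_apply, Matrix.one_apply_ne hne, Matrix.single_apply,
      Matrix.single_apply, if_neg, if_neg]
    · ring
    · rintro ⟨rfl, rfl⟩
      rw [rk_ng, rk_ng] at hrs
      omega
    · rintro ⟨rfl, rfl⟩
      omega
  · intro r
    rw [Matrix.sub_apply, Matrix.add_apply, Matrix.one_apply_eq, Matrix.single_apply,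
      Matrix.single_apply, if_neg, if_neg]
    · ring
    · rintro ⟨h1, h2⟩
      have : ng b = ng a := h1.trans h2.symm
      have := congrArg rk this
      rw [rk_ng, rk_ng] at this
      omega
    · rintro ⟨rfl, h2⟩
      rw [h2] at h
      omega

theorem pi_mul_val (x y : P) : (S.π (x * y)).1 = (S.π x).1 * (S.π y).1 := by
  rw [map_mul]
  rfl

-- piece `cut` (both)
theorem ut_U (y : P) (hy : y ∈ S.U) :
    (∀ a b, rk b < rk a → (S.π y).1 a b = 0) ∧ (∀ a, (S.π y).1 a a = 1) := by
  show UT (S.π y).1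
  induction hy using Subgroup.closure_induction_right with
  | one =>
    rw [map_one]
    exact UT_one
  | mul_right x _ y hy ih =>
    obtain ⟨a, b, t, hab, rfl⟩ := hy
    have hne : a ≠ b := fun e => by rw [e] at hab; omega
    rw [pi_mul_val, S.hπ a b t hne, Cfsg.Agent.Lib.Helper84SpXval.X_val a b hne]
    exact UT_mul ih (UT_Xm a b hab t)
  | mul_inv_cancel x _ y hy ih =>
    obtain ⟨a, b, t, hab, rfl⟩ := hy
    have hne : a ≠ b := fun e => by rw [e] at hab; omega
    rw [pi_mul_val, map_inv, S.hπ a b t hne,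
      Cfsg.Agent.Lib.Helper36SpXbasic.X_inv a b t Cfsg.Agent.Lib.Helper84SpXval.X_val,
      Cfsg.Agent.Lib.Helper84SpXval.X_val a b hne]
    exact UT_mul ih (UT_Xm a b hab (-t))

theorem pi_hl (i : Fin m) (u : F) : S.π (S.hl i u) = hX (Sum.inl i) (Sum.inr i) u := by
  have h1 : (Sum.inl i : I m) ≠ Sum.inr i := by simp
  unfold CSys.hl CSys.hh CSys.w hX wX
  simp only [map_mul, map_inv, S.hπ _ _ _ h1, S.hπ _ _ _ h1.symm]

theorem ut_H (hm : 2 ≤ m) (η : P) (hη : η ∈ S.H)
    (hX_long : ∀ (i : Fin m) (u : Fˣ),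
      (hX (Sum.inl i) (Sum.inr i) (u : F) : Sp m F) = D (Pi.mulSingle i u)) :
    ∀ a b, a ≠ b → (S.π η).1 a b = 0 := by
  have key : ∃ d : Fin m → Fˣ, S.π η = D d := by
    induction hη using Subgroup.closure_induction with
    | mem x hx =>
      obtain ⟨i, u, hu, rfl⟩ := hx
      exact ⟨Pi.mulSingle i (Units.mk0 u hu), by rw [pi_hl, ← hX_long]; rfl⟩
    | one => exact ⟨1, by rw [map_one, Cfsg.Agent.Lib.Helper36SpDval.D_one]⟩
    | mul x y _ _ hx hy =>
      obtain ⟨d, hd⟩ := hx
      obtain ⟨d', hd'⟩ := hy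
      exact ⟨d * d', by rw [map_mul, hd, hd', Cfsg.Agent.Lib.Helper36SpDval.D_mul]⟩
    | inv x _ hx =>
      obtain ⟨d, hd⟩ := hx
      exact ⟨d⁻¹, by rw [map_inv, hd, Cfsg.Agent.Lib.Helper36SpDval.D_inv]⟩
  obtain ⟨d, hd⟩ := key
  intro a b hab
  rw [hd, Cfsg.Agent.Lib.Helper36SpDval.D_val, Dm, Matrix.diagonal_apply_ne _ hab]

end Cfsg.Agent.Lib.Helper52SpCut
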