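import Cfsg.Agent.Lib.Helper43SpDefs

set_option autoImplicit false

namespace Cfsg.Agent.Lib.Helper54Spcsimple

open Matrix Cfsg.Agent.Lib.Helper43St Cfsg.Agent.Lib.Helper43Sp

variable {m : ℕ} {F : Type*} [Field F] {P : Type*} [Group P] (S : CSys m F P)

-- piece `csimple`
theorem simple_cases (a b : I m) (h : Simple a b) :
    (∃ i j : Fin m, j.val = i.val + 1 ∧ a = Sum.inl i ∧ b = Sum.inl j) ∨
    (∃ L : Fin m, L.val + 1 = m ∧ a = Sum.inl L ∧ b = Sum.inr L) := by
  obtain ⟨h1, h2⟩ := h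
  rcases a with i | i <;> rcases b with j | j <;>
    simp only [rk, Sum.elim_inl, Sum.elim_inr] at h1 h2
  · exact Or.inl ⟨i, j, h1, rfl, rfl⟩
  · right
    have hi := i.2
    have hj := j.2
    have hij : i = j := Fin.ext (by omega)
    subst hij
    exact ⟨i, by omega, rfl, rfl⟩
  · have := i.2; omega
  · have := i.2; omega

section hom

variable {Sg : Type*} [Group Sg] (A : StSys m F Sg) (ι : Sg →* P)

-- piece `cUle` (both)
theorem iota_U_le (hι : ∀ i j t, i ≠ j → ι (A.x i j t) = S.x (Sum.inl i) (Sum.inl j) t)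
    (u : Sg) (hu : u ∈ A.U) : ι u ∈ S.U := by
  have h : A.U ≤ S.U.comap ι := by
    unfold StSys.U
    rw [Subgroup.closure_le]
    rintro _ ⟨i, j, t, hij, rfl⟩
    show ι (A.x i j t) ∈ S.U
    rw [hι i j t hij.ne]
    exact Subgroup.subset_closure ⟨_, _, t, by simpa [rk] using hij, rfl⟩
  exact h hu

theorem Q_le_U : S.Q ≤ S.U := by
  unfold CSys.Q
  rw [Subgroup.closure_le]
  rintro _ ⟨i, j, t, rfl⟩
  refine Subgroup.subset_closure ⟨_, _, t, ?_, rfl⟩
  simp only [rk, Sum.elim_inl, Sum.elim_inr]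
  have := i.2; have := j.2; omega

end hom

end Cfsg.Agent.Lib.Helper54Spcsimple
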