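import Cfsg.Agent.Lib.Helper43SpDefs
import Cfsg.Agent.Lib.Helper21SpKh
import Cfsg.Agent.Lib.Helper84SpXval

set_option autoImplicit false

namespace Cfsg.Agent.Lib.Helper77SpClam

open Matrix Cfsg.Agent.Lib.Helper43St Cfsg.Agent.Lib.Helper43Sp

variable {m : ℕ} {F : Type*} [Field F] {P : Type*} [Group P] (S : CSys m F P)

theorem exists_lam (hm : 2 ≤ m) (i : Fin m) :
    ∃ f : SpecialLinearGroup (Fin 2) F →* P, (∀ t, f (tv 0 1 t) = S.x (Sum.inl i) (Sum.inr i) t) ∧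
      (∀ t, f (tv 1 0 t) = S.x (Sum.inr i) (Sum.inl i) t) := by
  obtain ⟨k, hk⟩ : ∃ k : Fin m, i ≠ k := by
    by_cases h0 : i.val = 0
    · exact ⟨⟨1, by omega⟩, fun h => by rw [h] at h0; simp at h0⟩
    · exact ⟨⟨0, by omega⟩, fun h => by rw [h] at h0; simp at h0⟩
  obtain ⟨q, hq⟩ := S.quad i k hk
  obtain ⟨Kh, hKh⟩ := Helper21SpKh.exists_kh 2 F
  refine ⟨q.comp (Kh.comp (MonoidHom.mulSingle (fun _ : Fin 2 => SpecialLinearGroup (Fin 2) F) 0)),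
    fun t => ?_, fun t => ?_⟩
  · have h1 : Kh (Pi.mulSingle 0 (tv 0 1 t)) = X (Sum.inl 0) (Sum.inr 0) t := by
      apply Subtype.ext
      rw [hKh, (Helper21SpKh.Km_X (0 : Fin 2) t).1, Helper84SpXval.X_val _ _ (by simp)]
    change q (Kh (Pi.mulSingle 0 (tv 0 1 t))) = _
    rw [h1, hq _ _ _ (by simp)]
    rfl
  · have h1 : Kh (Pi.mulSingle 0 (tv 1 0 t)) = X (Sum.inr 0) (Sum.inl 0) t := by
      apply Subtype.ext
      rw [hKh, (Helper21SpKh.Km_X (0 : Fin 2) t).2, Helper84SpXval.X_val _ _ (by simp)]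
    change q (Kh (Pi.mulSingle 0 (tv 1 0 t))) = _
    rw [h1, hq _ _ _ (by simp)]
    rfl

end Cfsg.Agent.Lib.Helper77SpClam
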