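import Cfsg.Agent.Lib.Helper43SpDefs
import Cfsg.Agent.Lib.Helper77SpClam
import Cfsg.Agent.Lib.Helper54Spcsimple

set_option autoImplicit false

/-! Project 243, piece `cwh`. -/

namespace Cfsg.Agent.Lib.Helper52SpCwh

open Matrix Cfsg.Agent.Lib.Helper43St Cfsg.Agent.Lib.Helper43Sp

variable {m : ℕ} {F : Type*} [Field F] {P : Type*} [Group P] (S : CSys m F P)

theorem hl_mem (i : Fin m) (u : F) (hu : u ≠ 0) : S.hl i u ∈ S.H :=
  Subgroup.subset_closure ⟨i, u, hu, rfl⟩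

/-- the identities in `SL_2(F)` -/
theorem sl2_a (u : F) (hu : u ≠ 0) :
    (tv 0 1 1 * tv 1 0 (-1⁻¹) * tv 0 1 1 : SpecialLinearGroup (Fin 2) F) *
      ((tv 0 1 u * tv 1 0 (-u⁻¹) * tv 0 1 u) * (tv 0 1 1 * tv 1 0 (-1⁻¹) * tv 0 1 1)⁻¹) *
      (tv 0 1 1 * tv 1 0 (-1⁻¹) * tv 0 1 1)⁻¹ =
    (tv 0 1 u⁻¹ * tv 1 0 (-u⁻¹⁻¹) * tv 0 1 u⁻¹) * (tv 0 1 1 * tv 1 0 (-1⁻¹) * tv 0 1 1)⁻¹ := by
  simp only [_root_.mul_inv_rev, tv_inv]
  ext i j
  fin_cases i <;> fin_cases j <;>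
    simp [Matrix.mul_apply, Fin.sum_univ_two, tv_apply, hu]

theorem sl2_b (u : F) (hu : u ≠ 0) :
    (tv 0 1 1 * tv 1 0 (-1⁻¹) * tv 0 1 1 : SpecialLinearGroup (Fin 2) F)⁻¹ *
      ((tv 0 1 u * tv 1 0 (-u⁻¹) * tv 0 1 u) * (tv 0 1 1 * tv 1 0 (-1⁻¹) * tv 0 1 1)⁻¹) *
      (tv 0 1 1 * tv 1 0 (-1⁻¹) * tv 0 1 1) =
    (tv 0 1 u⁻¹ * tv 1 0 (-u⁻¹⁻¹) * tv 0 1 u⁻¹) * (tv 0 1 1 * tv 1 0 (-1⁻¹) * tv 0 1 1)⁻¹ := by
  simp only [_root_.mul_inv_rev, tv_inv]
  ext i j
  fin_cases i <;> fin_cases j <;>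
    simp [Matrix.mul_apply, Fin.sum_univ_two, tv_apply, hu]

theorem conj_hl (W : P) (k k' : Fin m) (u : F)
    (h1 : ∀ t, W * S.x (Sum.inl k) (Sum.inr k) t * W⁻¹ = S.x (Sum.inl k') (Sum.inr k') t)
    (h2 : ∀ t, W * S.x (Sum.inr k) (Sum.inl k) t * W⁻¹ = S.x (Sum.inr k') (Sum.inl k') t) :
    W * S.hl k u * W⁻¹ = S.hl k' u := by
  have e1 : ∀ t, MulAut.conj W (S.x (Sum.inl k) (Sum.inr k) t) = S.x (Sum.inl k') (Sum.inr k') t :=
    fun t => by rw [MulAut.conj_apply, h1]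
  have e2 : ∀ t, MulAut.conj W (S.x (Sum.inr k) (Sum.inl k) t) = S.x (Sum.inr k') (Sum.inl k') t :=
    fun t => by rw [MulAut.conj_apply, h2]
  rw [← MulAut.conj_apply]
  unfold CSys.hl CSys.hh CSys.w
  simp only [map_mul, map_inv, e1, e2]

-- piece `cwh`
theorem w_hl (hm : 2 ≤ m) (a b : I m) (h : Simple a b) (k : Fin m) (u : F) (hu : u ≠ 0)
    (w_short_long : ∀ (i j : Fin m), i ≠ j → ∀ (a : I m) (t : F),
      S.w (Sum.inl i) (Sum.inl j) 1 * S.x a (ng a) t * (S.w (Sum.inl i) (Sum.inl j) 1)⁻¹ =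
        S.x (pmI (Equiv.swap i j) a) (ng (pmI (Equiv.swap i j) a)) t ∧
      (S.w (Sum.inl i) (Sum.inl j) 1)⁻¹ * S.x a (ng a) t * S.w (Sum.inl i) (Sum.inl j) 1 =
        S.x (pmI (Equiv.swap i j) a) (ng (pmI (Equiv.swap i j) a)) t) :
    S.w a b 1 * S.hl k u * (S.w a b 1)⁻¹ ∈ S.H ∧ (S.w a b 1)⁻¹ * S.hl k u * S.w a b 1 ∈ S.H := by
  rcases Cfsg.Agent.Lib.Helper54Spcsimple.simple_cases a b h with
    ⟨i, j, hij, rfl, rfl⟩ | ⟨L, hL, rfl, rfl⟩
  · have hij' : i ≠ j := fun e => by rw [e] at hij; omega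
    constructor
    · rw [conj_hl S _ k (Equiv.swap i j k) u
        (fun t => (w_short_long i j hij' (Sum.inl k) t).1)
        (fun t => (w_short_long i j hij' (Sum.inr k) t).1)]
      exact hl_mem S _ u hu
    · have := conj_hl S (S.w (Sum.inl i) (Sum.inl j) 1)⁻¹ k (Equiv.swap i j k) u
        (fun t => by rw [inv_inv]; exact (w_short_long i j hij' (Sum.inl k) t).2)
        (fun t => by rw [inv_inv]; exact (w_short_long i j hij' (Sum.inr k) t).2)
      rw [inv_inv] at this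
      rw [this]
      exact hl_mem S _ u hu
  · by_cases hk : k = L
    · subst hk
      obtain ⟨f, f1, f2⟩ := Cfsg.Agent.Lib.Helper77SpClam.exists_lam S hm k
      have hu' : u⁻¹ ≠ 0 := inv_ne_zero hu
      constructor
      · have := congrArg f (sl2_a u hu)
        simp only [map_mul, map_inv, f1, f2] at this
        have e : S.w (Sum.inl k) (Sum.inr k) 1 * S.hl k u * (S.w (Sum.inl k) (Sum.inr k) 1)⁻¹ =
            S.hl k u⁻¹ := this
        rw [e]
        exact hl_mem S _ _ hu'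
      · have := congrArg f (sl2_b u hu)
        simp only [map_mul, map_inv, f1, f2] at this
        have e : (S.w (Sum.inl k) (Sum.inr k) 1)⁻¹ * S.hl k u * S.w (Sum.inl k) (Sum.inr k) 1 =
            S.hl k u⁻¹ := this
        rw [e]
        exact hl_mem S _ _ hu'
    · -- everything commutes
      have hk' : L ≠ k := fun e => hk e.symm
      have c : ∀ (a b c d : I m), a ≠ b → c ≠ d → ab a = L → ab b = L → ab c = k → ab d = k →
          ∀ s t, Commute (S.x a b s) (S.x c d t) := by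
        intro a b c d hab hcd ha hb hc hd s t
        exact S.dis a b c d hab hcd (by rw [ha, hc]; exact hk') (by rw [ha, hd]; exact hk')
          (by rw [hb, hc]; exact hk') (by rw [hb, hd]; exact hk') s t
      have n1 : (Sum.inl L : I m) ≠ Sum.inr L := by simp
      have n2 : (Sum.inl k : I m) ≠ Sum.inr k := by simp
      have cw : ∀ (s t : F), Commute (S.w (Sum.inl L) (Sum.inr L) s) (S.w (Sum.inl k) (Sum.inr k) t) := by
        intro s t
        unfold CSys.w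
        have c1 := fun s t => c _ _ _ _ n1 n2 rfl rfl rfl rfl s t
        have c2 := fun s t => c _ _ _ _ n1 n2.symm rfl rfl rfl rfl s t
        have c3 := fun s t => c _ _ _ _ n1.symm n2 rfl rfl rfl rfl s t
        have c4 := fun s t => c _ _ _ _ n1.symm n2.symm rfl rfl rfl rfl s t
        exact Commute.mul_left (Commute.mul_left
          (Commute.mul_right (Commute.mul_right (c1 _ _) (c2 _ _)) (c1 _ _))
          (Commute.mul_right (Commute.mul_right (c3 _ _) (c4 _ _)) (c3 _ _)))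
          (Commute.mul_right (Commute.mul_right (c1 _ _) (c2 _ _)) (c1 _ _))
      have ch : Commute (S.w (Sum.inl L) (Sum.inr L) 1) (S.hl k u) := by
        unfold CSys.hl CSys.hh
        exact Commute.mul_right (cw _ _) (Commute.inv_right (cw _ _))
      constructor
      · rw [ch.eq, mul_inv_cancel_right]
        exact hl_mem S _ u hu
      · rw [mul_assoc, ← ch.eq, inv_mul_cancel_left]
        exact hl_mem S _ u hu

end Cfsg.Agent.Lib.Helper52SpCwh
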