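import Cfsg.Agent.Lib.Helper43SpDefs
import Cfsg.Agent.Lib.Helper65SpAPI

set_option autoImplicit false
set_option linter.unusedSimpArgs false

/-! Project 243 (wave 2), piece `hxd`, and the matrix identities behind `cxw`, `cwsq`. -/

namespace Cfsg.Agent.Lib.Helper65Sphxd

open Matrix Cfsg.Agent.Lib.Helper43St Cfsg.Agent.Lib.Helper43Sp
open Cfsg.Agent.Lib.Helper65SpAPI

variable {m : ℕ} {F : Type*} [Field F]

/-- the matrix unit -/
def Eu (F : Type*) [Field F] (i j : I m) : Matrix (I m) (I m) F := Matrix.single i j 1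

theorem key (i j : I m) (x : F) : Matrix.single i j x = x • Eu F i j := by
  rw [Eu, Matrix.smul_single, smul_eq_mul, mul_one]

theorem Xm_lr (i : Fin m) (t : F) :
    Xm (Sum.inl i) (Sum.inr i) t = 1 + Matrix.single (Sum.inl i) (Sum.inr i) t := by
  simp [Xm, ng]

theorem Xm_rl (i : Fin m) (t : F) :
    Xm (Sum.inr i) (Sum.inl i) t = 1 + Matrix.single (Sum.inr i) (Sum.inl i) t := by
  simp [Xm, ng]

theorem Xm_ll (i j : Fin m) (t : F) :
    Xm (Sum.inl i) (Sum.inl j) t =
      1 + Matrix.single (Sum.inl i) (Sum.inl j) t - Matrix.single (Sum.inr j) (Sum.inr i) t := by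
  simp [Xm, ng, sg]

theorem Dm_single (i : Fin m) (u : Fˣ) :
    Dm (Pi.mulSingle i u) = 1 + Matrix.single (Sum.inl i) (Sum.inl i) ((u : F) - 1) +
      Matrix.single (Sum.inr i) (Sum.inr i) ((u : F)⁻¹ - 1) := by
  ext a b
  rcases a with a | a <;> rcases b with b | b
  · by_cases h1 : a = b
    · subst h1
      by_cases h2 : a = i
      · subst h2; simp [Dm, chi, Matrix.single_apply]
      · simp [Dm, chi, Matrix.single_apply, Pi.mulSingle_eq_of_ne h2, Ne.symm h2]
    · simp [Dm, chi, Matrix.single_apply, h1, Matrix.one_apply]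
      intro h2 h3; exact absurd (h2.symm.trans h3) h1
  · simp [Dm, Matrix.single_apply]
  · simp [Dm, Matrix.single_apply]
  · by_cases h1 : a = b
    · subst h1
      by_cases h2 : a = i
      · subst h2; simp [Dm, chi, Matrix.single_apply]
      · simp [Dm, chi, Matrix.single_apply, Pi.mulSingle_eq_of_ne h2, Ne.symm h2]
    · simp [Dm, chi, Matrix.single_apply, h1, Matrix.one_apply]
      intro h2 h3; exact absurd (h2.symm.trans h3) h1

theorem lr_ne (i : Fin m) : (Sum.inl i : I m) ≠ Sum.inr i := by simp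
theorem ll_ne {i j : Fin m} (h : i ≠ j) : (Sum.inl i : I m) ≠ Sum.inl j := fun e => h (Sum.inl.inj e)

/-- normal form of `wX` for a long root -/
theorem wX_long_val (i : Fin m) (u : F) (hu : u ≠ 0) :
    ((wX (Sum.inl i) (Sum.inr i) u : Sp m F) : Matrix (I m) (I m) F) =
      1 - Matrix.single (Sum.inl i) (Sum.inl i) 1 - Matrix.single (Sum.inr i) (Sum.inr i) 1
        + Matrix.single (Sum.inl i) (Sum.inr i) u - Matrix.single (Sum.inr i) (Sum.inl i) u⁻¹ := by
  unfold wX
  simp only [MulMemClass.coe_mul, X_val _ _ (lr_ne i), X_val _ _ (lr_ne i).symm, Xm_lr, Xm_rl]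
  simp only [mul_add, add_mul, mul_sub, sub_mul, mul_one, one_mul, Matrix.single_mul_single_same,
    Matrix.single_mul_single_of_ne, ne_eq, reduceCtorEq, not_false_eq_true, sub_zero, add_zero,
    zero_add, zero_sub, mul_zero, zero_mul]
  simp only [key]
  match_scalars <;> field_simp <;> ring

/-- normal form of `wX` for a short root -/
theorem wX_short_val (i j : Fin m) (hij : i ≠ j) (u : F) (hu : u ≠ 0) :
    ((wX (Sum.inl i) (Sum.inl j) u : Sp m F) : Matrix (I m) (I m) F) =
      1 - Matrix.single (Sum.inl i) (Sum.inl i) 1 - Matrix.single (Sum.inl j) (Sum.inl j) 1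
        - Matrix.single (Sum.inr i) (Sum.inr i) 1 - Matrix.single (Sum.inr j) (Sum.inr j) 1
        + Matrix.single (Sum.inl i) (Sum.inl j) u - Matrix.single (Sum.inl j) (Sum.inl i) u⁻¹
        - Matrix.single (Sum.inr j) (Sum.inr i) u + Matrix.single (Sum.inr i) (Sum.inr j) u⁻¹ := by
  unfold wX
  simp only [MulMemClass.coe_mul, X_val _ _ (ll_ne hij), X_val _ _ (ll_ne hij).symm, Xm_ll]
  simp only [mul_add, add_mul, mul_sub, sub_mul, mul_one, one_mul, Matrix.single_mul_single_same,
    Matrix.single_mul_single_of_ne, ne_eq, reduceCtorEq, not_false_eq_true, sub_zero, add_zero,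
    zero_add, zero_sub, mul_zero, zero_mul, Sum.inl.injEq, Sum.inr.injEq, hij, hij.symm]
  simp only [key]
  match_scalars <;> field_simp <;> ring

-- piece `hxd` (both)
theorem hX_long (i : Fin m) (u : Fˣ) :
    (hX (Sum.inl i) (Sum.inr i) (u : F) : Sp m F) = D (Pi.mulSingle i u) := by
  unfold hX
  rw [mul_inv_eq_iff_eq_mul]
  apply Subtype.ext
  have hu : (u : F) ≠ 0 := u.ne_zero
  simp only [MulMemClass.coe_mul, wX_long_val i _ hu, wX_long_val i _ one_ne_zero, D_val, Dm_single]
  simp only [mul_add, add_mul, mul_sub, sub_mul, mul_one, one_mul, Matrix.single_mul_single_same,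
    Matrix.single_mul_single_of_ne, ne_eq, reduceCtorEq, not_false_eq_true, sub_zero, add_zero,
    zero_add, zero_sub, mul_zero, zero_mul]
  simp only [key]
  match_scalars <;> field_simp <;> ring

theorem hX_short (i j : Fin m) (hij : i ≠ j) (u : Fˣ) :
    (hX (Sum.inl i) (Sum.inl j) (u : F) : Sp m F) = D (Pi.mulSingle i u * Pi.mulSingle j u⁻¹) := by
  unfold hX
  rw [mul_inv_eq_iff_eq_mul, D_mul]
  apply Subtype.ext
  have hu : (u : F) ≠ 0 := u.ne_zero
  simp only [MulMemClass.coe_mul, wX_short_val i j hij _ hu, wX_short_val i j hij _ one_ne_zero, D_val,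
    Dm_single, Units.val_inv_eq_inv_val, inv_inv]
  simp only [mul_add, add_mul, mul_sub, sub_mul, mul_one, one_mul, Matrix.single_mul_single_same,
    Matrix.single_mul_single_of_ne, ne_eq, reduceCtorEq, not_false_eq_true, sub_zero, add_zero,
    zero_add, zero_sub, mul_zero, zero_mul, Sum.inl.injEq, Sum.inr.injEq, hij, hij.symm]
  simp only [key]
  match_scalars <;> field_simp <;> ring

/-- matrix side of `cxw` -/
theorem X_mul_wX_short (i j : Fin m) (hij : i ≠ j) (u : F) (hu : u ≠ 0) :
    (X (Sum.inl i) (Sum.inl j) u : Sp m F) * wX (Sum.inl i) (Sum.inl j) 1 =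
      X (Sum.inl j) (Sum.inl i) u⁻¹ * hX (Sum.inl i) (Sum.inl j) (-u) *
        X (Sum.inl i) (Sum.inl j) (-u⁻¹) := by
  have h1 := hX_short i j hij (Units.mk0 (-u) (neg_ne_zero.mpr hu))
  rw [Units.val_mk0] at h1
  rw [h1, D_mul]
  apply Subtype.ext
  simp only [MulMemClass.coe_mul, wX_short_val i j hij _ one_ne_zero, D_val,
    Dm_single, Units.val_inv_eq_inv_val, inv_inv, X_val _ _ (ll_ne hij), X_val _ _ (ll_ne hij).symm, Xm_ll,
    Units.val_mk0]
  simp only [mul_add, add_mul, mul_sub, sub_mul, mul_one, one_mul, Matrix.single_mul_single_same,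
    Matrix.single_mul_single_of_ne, ne_eq, reduceCtorEq, not_false_eq_true, sub_zero, add_zero,
    zero_add, zero_sub, mul_zero, zero_mul, Sum.inl.injEq, Sum.inr.injEq, hij, hij.symm]
  simp only [key]
  match_scalars <;> field_simp <;> ring

theorem X_mul_wX_long (i : Fin m) (u : F) (hu : u ≠ 0) :
    (X (Sum.inl i) (Sum.inr i) u : Sp m F) * wX (Sum.inl i) (Sum.inr i) 1 =
      X (Sum.inr i) (Sum.inl i) u⁻¹ * hX (Sum.inl i) (Sum.inr i) (-u) *
        X (Sum.inl i) (Sum.inr i) (-u⁻¹) := by
  have h1 := hX_long i (Units.mk0 (-u) (neg_ne_zero.mpr hu))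
  rw [Units.val_mk0] at h1
  rw [h1]
  apply Subtype.ext
  simp only [MulMemClass.coe_mul, wX_long_val i _ one_ne_zero, D_val,
    Dm_single, Units.val_inv_eq_inv_val, inv_inv, X_val _ _ (lr_ne i), X_val _ _ (lr_ne i).symm, Xm_lr, Xm_rl,
    Units.val_mk0]
  simp only [mul_add, add_mul, mul_sub, sub_mul, mul_one, one_mul, Matrix.single_mul_single_same,
    Matrix.single_mul_single_of_ne, ne_eq, reduceCtorEq, not_false_eq_true, sub_zero, add_zero,
    zero_add, zero_sub, mul_zero, zero_mul]
  simp only [key]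
  match_scalars <;> field_simp <;> ring

/-- matrix side of `cwsq` -/
theorem wX_sq_short (i j : Fin m) (hij : i ≠ j) :
    (wX (Sum.inl i) (Sum.inl j) 1 : Sp m F) * wX (Sum.inl i) (Sum.inl j) 1 =
      hX (Sum.inl i) (Sum.inl j) (-1) := by
  have h1 := hX_short (F := F) i j hij (-1)
  rw [Units.val_neg, Units.val_one] at h1
  rw [h1, D_mul]
  apply Subtype.ext
  simp only [MulMemClass.coe_mul, wX_short_val i j hij _ one_ne_zero, D_val,
    Dm_single, Units.val_inv_eq_inv_val, inv_inv, Units.val_neg, Units.val_one]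
  simp only [mul_add, add_mul, mul_sub, sub_mul, mul_one, one_mul, Matrix.single_mul_single_same,
    Matrix.single_mul_single_of_ne, ne_eq, reduceCtorEq, not_false_eq_true, sub_zero, add_zero,
    zero_add, zero_sub, mul_zero, zero_mul, Sum.inl.injEq, Sum.inr.injEq, hij, hij.symm]
  simp only [key]
  match_scalars <;> field_simp <;> ring

theorem wX_sq_long (i : Fin m) :
    (wX (Sum.inl i) (Sum.inr i) 1 : Sp m F) * wX (Sum.inl i) (Sum.inr i) 1 =
      hX (Sum.inl i) (Sum.inr i) (-1) := by
  have h1 := hX_long (F := F) i (-1)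
  rw [Units.val_neg, Units.val_one] at h1
  rw [h1]
  apply Subtype.ext
  simp only [MulMemClass.coe_mul, wX_long_val i _ one_ne_zero, D_val,
    Dm_single, Units.val_inv_eq_inv_val, inv_inv, Units.val_neg, Units.val_one]
  simp only [mul_add, add_mul, mul_sub, sub_mul, mul_one, one_mul, Matrix.single_mul_single_same,
    Matrix.single_mul_single_of_ne, ne_eq, reduceCtorEq, not_false_eq_true, sub_zero, add_zero,
    zero_add, zero_sub, mul_zero, zero_mul]
  simp only [key]
  match_scalars <;> field_simp <;> ring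

end Cfsg.Agent.Lib.Helper65Sphxd
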