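import Cfsg.Agent.Lib.Helper43SpDefs2
import Cfsg.Agent.Lib.Helper36SpTWire
import Cfsg.Agent.Lib.Helper65SpAPI
import Cfsg.Agent.Lib.Helper65Sphxd
import Cfsg.Agent.Lib.Helper28SpM2w
import Cfsg.Agent.Lib.Helper36SpPmx

set_option autoImplicit false

/-! Project 243, piece `dsp4gen`. -/

namespace Cfsg.Agent.Lib.Helper52SpDsp4gen

open Matrix Cfsg.Agent.Lib.Helper43BP Cfsg.Agent.Lib.Helper43St Cfsg.Agent.Lib.Helper43Sp

-- piece `dsp4gen`
theorem sp4_gen' (F : Type*) [Field F] :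
    Subgroup.closure ({g : Sp 2 F | ∃ (a : I 2) (t : F), ab a = 0 ∧ g = X a (ng a) t} ∪
      {PM F (Equiv.swap 0 1), vv F}) = ⊤ := by
  set K := Subgroup.closure ({g : Sp 2 F | ∃ (a : I 2) (t : F), ab a = 0 ∧ g = X a (ng a) t} ∪
      {PM F (Equiv.swap 0 1), vv F}) with hK
  have e0f0 : Full K (Sum.inl 0) (Sum.inr 0) := fun t =>
    Subgroup.subset_closure (Or.inl ⟨Sum.inl 0, t, rfl, rfl⟩)
  have f0e0 : Full K (Sum.inr 0) (Sum.inl 0) := fun t =>
    Subgroup.subset_closure (Or.inl ⟨Sum.inr 0, t, rfl, rfl⟩)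
  have hPM : PM F (Equiv.swap 0 1) ∈ K := Subgroup.subset_closure (Or.inr (by simp))
  have hv : X (Sum.inl 0) (Sum.inl 1) (1 : F) ∈ K := Subgroup.subset_closure (Or.inr (by simp [vv]))
  have hw : ∀ u : F, wX (Sum.inl 0) (Sum.inr 0) u ∈ K := fun u =>
    mul_mem (mul_mem (e0f0 _) (f0e0 _)) (e0f0 _)
  have hD : ∀ u : Fˣ, (D (Pi.mulSingle 0 u) : Sp 2 F) ∈ K := by
    intro u
    rw [← Cfsg.Agent.Lib.Helper65Sphxd.hX_long]
    exact mul_mem (hw _) (inv_mem (hw _))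
  have e0e1 : Full K (Sum.inl 0) (Sum.inl 1) := by
    intro t
    by_cases ht : t = 0
    · rw [ht, Cfsg.Agent.Lib.Helper65SpAPI.X_zero]
      exact one_mem _
    · have h1 := Cfsg.Agent.Lib.Helper65SpAPI.D_X (Pi.mulSingle 0 (Units.mk0 t ht) : Fin 2 → Fˣ)
        (Sum.inl 0) (Sum.inl 1) (by simp) (1 : F)
      have e : ((chi (Pi.mulSingle 0 (Units.mk0 t ht) : Fin 2 → Fˣ) (Sum.inl 0) : Fˣ) : F) *
          ((chi (Pi.mulSingle 0 (Units.mk0 t ht) : Fin 2 → Fˣ) (Sum.inl 1) : Fˣ) : F)⁻¹ * 1 = t := by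
        simp [chi]
      rw [e] at h1
      rw [← h1]
      exact mul_mem (mul_mem (hD _) hv) (inv_mem (hD _))
  -- conjugation by the permutation matrix
  have pm : ∀ a b : I 2, a ≠ b → Full K a b →
      Full K (pmI (Equiv.swap 0 1) a) (pmI (Equiv.swap 0 1) b) := by
    intro a b hab h t
    rw [← Cfsg.Agent.Lib.Helper36SpPmx.PM_X (Equiv.swap 0 1) a b hab t
      Cfsg.Agent.Lib.Helper65SpAPI.X_val]
    exact mul_mem (mul_mem hPM (h t)) (inv_mem hPM)
  have e1e0 : Full K (Sum.inl 1) (Sum.inl 0) := by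
    have := pm _ _ (by simp) e0e1
    simpa [pmI] using this
  have e1f1 : Full K (Sum.inl 1) (Sum.inr 1) := by
    have := pm _ _ (by simp) e0f0
    simpa [pmI] using this
  have f1e1 : Full K (Sum.inr 1) (Sum.inl 1) := by
    have := pm _ _ (by simp) f0e0
    simpa [pmI] using this
  -- conjugation by the long reflection
  have wl : ∀ c d : I 2, c ≠ d →
      Full K (sw (Sum.inl 0) (Sum.inr 0) c) (sw (Sum.inl 0) (Sum.inr 0) d) → Full K c d := by
    intro c d hcd h t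
    obtain ⟨t', ht'⟩ := (Cfsg.Agent.Lib.Helper28SpM2w.wX_long c d hcd t).1
    have e : X c d t = (wX (Sum.inl 0) (Sum.inr 0) 1 : Sp 2 F)⁻¹ *
        X (sw (Sum.inl 0) (Sum.inr 0) c) (sw (Sum.inl 0) (Sum.inr 0) d) t' *
        wX (Sum.inl 0) (Sum.inr 0) 1 := by
      rw [← ht']; group
    rw [e]
    exact mul_mem (mul_mem (inv_mem (hw 1)) (h t')) (hw 1)
  have hsw : sw (Sum.inl 0 : I 2) (Sum.inr 0) = Equiv.swap (Sum.inl 0) (Sum.inr 0) := by
    unfold sw
    exact if_pos rfl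
  have f0e1 : Full K (Sum.inr 0) (Sum.inl 1) := by
    apply wl _ _ (by simp)
    rw [hsw, Equiv.swap_apply_right, Equiv.swap_apply_of_ne_of_ne (by simp) (by simp)]
    exact e0e1
  have e1f0 : Full K (Sum.inl 1) (Sum.inr 0) := by
    apply wl _ _ (by simp)
    rw [hsw, Equiv.swap_apply_right, Equiv.swap_apply_of_ne_of_ne (by simp) (by simp)]
    exact e1e0
  have sym := Cfsg.Agent.Lib.Helper65Sptfull.full_sym K
  have f1f0 : Full K (Sum.inr 1) (Sum.inr 0) := sym _ _ (by simp [ab]) e0e1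
  have f0f1 : Full K (Sum.inr 0) (Sum.inr 1) := sym _ _ (by simp [ab]) e1e0
  have f1e0 : Full K (Sum.inr 1) (Sum.inl 0) := sym _ _ (by simp [ab]) f0e1
  have e0f1 : Full K (Sum.inl 0) (Sum.inr 1) := sym _ _ (by simp [ab]) e1f0
  apply Cfsg.Agent.Lib.Helper36SpTWire.top_of_full K
  · rintro (b | b) (c | c) hbc <;> fin_cases b <;> fin_cases c <;>
      first
      | exact absurd rfl hbc
      | assumption
  · rintro (b | b) <;> fin_cases b <;> assumption

end Cfsg.Agent.Lib.Helper52SpDsp4gen
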