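import Cfsg.Agent.Lib.Helper54Spdext2

set_option autoImplicit false

namespace Cfsg.Agent.Lib.Helper54SpdL1

open Matrix Cfsg.Agent.Lib.Helper43BP Cfsg.Agent.Lib.Helper43St Cfsg.Agent.Lib.Helper43Sp
open Cfsg.Agent.Lib.Helper54Spdext2

variable {m : ℕ} {F : Type*} [Field F] {P : Type*} [Group P] (G : GC m F P)

-- piece `dL1`
theorem L1 (σ : Equiv.Perm (Fin (m + 3))) (h0 : σ 0 = 0) (h1 : σ 1 = 1) (g : Sp 2 F)
    (sp4_gen' : Subgroup.closure ({g : Sp 2 F | ∃ (a : I 2) (t : F), ab a = 0 ∧ g = X a (ng a) t} ∪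
      {PM F (Equiv.swap 0 1), vv F}) = ⊤) :
    Commute (G.θ σ) (G.ι g) := by
  have hg : g ∈ Subgroup.closure ({g : Sp 2 F | ∃ (a : I 2) (t : F), ab a = 0 ∧ g = X a (ng a) t} ∪
      {PM F (Equiv.swap 0 1), vv F}) := by rw [sp4_gen']; trivial
  induction hg using Subgroup.closure_induction with
  | mem y hy =>
    rcases hy with ⟨a, t, ha, rfl⟩ | hy
    · exact G.k2 σ h0 a ha t
    · rcases hy with rfl | hy
      · rw [← G.k1]
        show G.θ σ * G.θ (Equiv.swap 0 1) = G.θ (Equiv.swap 0 1) * G.θ σ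
        rw [← map_mul, ← map_mul, Equiv.mul_swap_eq_swap_mul, h0, h1]
      · rw [Set.mem_singleton_iff] at hy
        rw [hy]
        exact G.k3 σ h0 h1
  | one => rw [map_one]; exact Commute.one_right _
  | mul a b _ _ iha ihb => rw [map_mul]; exact iha.mul_right ihb
  | inv a _ iha => rw [map_inv]; exact iha.inv_right

theorem ab_ng (a : I (m + 3)) : ab (ng a) = ab a := by
  rcases a with a | a <;> rfl

theorem lw_ng (k : Fin 2) (a : I (m + 3)) : lw k (ng a) = ng (lw k a) := by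
  rcases a with a | a <;> rfl

theorem ab_lw (k : Fin 2) (a : I (m + 3)) : ab (lw k a) = k := by
  rcases a with a | a <;> rfl

theorem lw_pmI (k : Fin 2) (ρ : Equiv.Perm (Fin (m + 3))) (a : I (m + 3)) : lw k (pmI ρ a) = lw k a := by
  rcases a with a | a <;> rfl

theorem ab_pmI (ρ : Equiv.Perm (Fin (m + 3))) (a : I (m + 3)) : ab (pmI ρ a) = ρ (ab a) := by
  rcases a with a | a <;> rfl

theorem ng_pmI (ρ : Equiv.Perm (Fin (m + 3))) (a : I (m + 3)) : ng (pmI ρ a) = pmI ρ (ng a) := by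
  rcases a with a | a <;> rfl

theorem conj_eq_of_commute {σ σ' : Equiv.Perm (Fin (m + 3))} {y : P}
    (h : Commute (G.θ (σ'⁻¹ * σ)) y) : G.θ σ * y * (G.θ σ)⁻¹ = G.θ σ' * y * (G.θ σ')⁻¹ := by
  have e : G.θ σ = G.θ σ' * G.θ (σ'⁻¹ * σ) := by rw [← map_mul]; congr 1; group
  rw [e]
  calc G.θ σ' * G.θ (σ'⁻¹ * σ) * y * (G.θ σ' * G.θ (σ'⁻¹ * σ))⁻¹
      = G.θ σ' * (G.θ (σ'⁻¹ * σ) * y) * (G.θ (σ'⁻¹ * σ))⁻¹ * (G.θ σ')⁻¹ := by group
    _ = G.θ σ' * (y * G.θ (σ'⁻¹ * σ)) * (G.θ (σ'⁻¹ * σ))⁻¹ * (G.θ σ')⁻¹ := by rw [h.eq]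
    _ = _ := by group

-- piece `dxwd` (both)
theorem x_wd_short (σ : Equiv.Perm (Fin (m + 3))) (a b : I (m + 3)) (ha : σ 0 = ab a) (hb : σ 1 = ab b)
    (t : F)
    (sp4_gen' : Subgroup.closure ({g : Sp 2 F | ∃ (a : I 2) (t : F), ab a = 0 ∧ g = X a (ng a) t} ∪
      {PM F (Equiv.swap 0 1), vv F}) = ⊤) :
    G.θ σ * G.ι (X (lw 0 a) (lw 1 b) t) * (G.θ σ)⁻¹ = G.x a b t := by
  have h : ∃ σ : Equiv.Perm (Fin (m + 3)), σ 0 = ab a ∧ σ 1 = ab b := ⟨σ, ha, hb⟩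
  unfold GC.x
  rw [dif_pos h]
  apply conj_eq_of_commute
  apply L1 G _ _ _ _ sp4_gen'
  · rw [Equiv.Perm.mul_apply, ha, Equiv.Perm.inv_eq_iff_eq]
    exact h.choose_spec.1.symm
  · rw [Equiv.Perm.mul_apply, hb, Equiv.Perm.inv_eq_iff_eq]
    exact h.choose_spec.2.symm

theorem x_wd_long (σ : Equiv.Perm (Fin (m + 3))) (a : I (m + 3)) (ha : σ 0 = ab a) (t : F) :
    G.θ σ * G.ι (X (lw 0 a) (ng (lw 0 a)) t) * (G.θ σ)⁻¹ = G.x a (ng a) t := by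
  have h : ¬ ∃ σ : Equiv.Perm (Fin (m + 3)), σ 0 = ab a ∧ σ 1 = ab (ng a) := by
    rintro ⟨ρ, h0, h1⟩
    rw [ab_ng, ← h0] at h1
    have := ρ.injective h1
    have := congrArg Fin.val this
    simp at this
  unfold GC.x
  rw [dif_neg h, lw_ng]
  apply conj_eq_of_commute
  apply G.k2 _ _ _ (ab_lw 0 a)
  rw [Equiv.Perm.mul_apply, ha, Equiv.swap_inv, Equiv.swap_apply_right]

-- piece `dxequiv`
theorem x_equiv (ρ : Equiv.Perm (Fin (m + 3))) (a b : I (m + 3)) (hab : a ≠ b) (t : F)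
    (sp4_gen' : Subgroup.closure ({g : Sp 2 F | ∃ (a : I 2) (t : F), ab a = 0 ∧ g = X a (ng a) t} ∪
      {PM F (Equiv.swap 0 1), vv F}) = ⊤) :
    G.θ ρ * G.x a b t * (G.θ ρ)⁻¹ = G.x (pmI ρ a) (pmI ρ b) t := by
  by_cases h : ab a = ab b
  · have hb : b = ng a := by
      rcases a with a | a <;> rcases b with b | b <;> simp only [ab, Sum.elim_inl, Sum.elim_inr, id] at h
      · exact absurd (congrArg _ h) hab
      · rw [h]; rfl
      · rw [h]; rfl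
      · exact absurd (congrArg _ h) hab
    subst hb
    rw [← x_wd_long G (Equiv.swap 0 (ab a)) a (Equiv.swap_apply_left _ _) t, ← ng_pmI,
      ← x_wd_long G (ρ * Equiv.swap 0 (ab a)) (pmI ρ a)
        (by rw [Equiv.Perm.mul_apply, Equiv.swap_apply_left, ab_pmI]) t, lw_pmI, map_mul]
    group
  · obtain ⟨σ, h0, h1⟩ := ext2p (ab a) (ab b) h
    rw [← x_wd_short G σ a b h0 h1 t sp4_gen',
      ← x_wd_short G (ρ * σ) (pmI ρ a) (pmI ρ b) (by rw [Equiv.Perm.mul_apply, h0, ab_pmI])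
        (by rw [Equiv.Perm.mul_apply, h1, ab_pmI]) t sp4_gen', lw_pmI, lw_pmI, map_mul]
    group

-- piece `dbase` (both)
theorem x01 (sp4_gen' : Subgroup.closure ({g : Sp 2 F | ∃ (a : I 2) (t : F), ab a = 0 ∧ g = X a (ng a) t} ∪
      {PM F (Equiv.swap 0 1), vv F}) = ⊤) : G.x (Sum.inl 0) (Sum.inl 1) 1 = G.ι (vv F) := by
  rw [← x_wd_short G 1 (Sum.inl 0) (Sum.inl 1) rfl rfl 1 sp4_gen']
  simp only [map_one, one_mul, inv_one, mul_one]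
  rfl

theorem two_val : ((2 : Fin (m + 3)) : ℕ) = 2 := by
  show 2 % (m + 3) = 2
  exact Nat.mod_eq_of_lt (by omega)

theorem ne01 : (0 : Fin (m + 3)) ≠ 1 := by
  intro h; have := congrArg Fin.val h; simp at this

theorem ne02 : (0 : Fin (m + 3)) ≠ 2 := by
  intro h; have := congrArg Fin.val h; rw [two_val] at this; simp at this

theorem ne12 : (1 : Fin (m + 3)) ≠ 2 := by
  intro h; have := congrArg Fin.val h; rw [two_val] at this; simp at this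

theorem x12 (sp4_gen' : Subgroup.closure ({g : Sp 2 F | ∃ (a : I 2) (t : F), ab a = 0 ∧ g = X a (ng a) t} ∪
      {PM F (Equiv.swap 0 1), vv F}) = ⊤) :
    G.x (Sum.inl 1) (Sum.inl 2) 1 = G.θ (c3 0 1 2) * G.ι (vv F) * (G.θ (c3 0 1 2))⁻¹ := by
  rw [← x_wd_short G (c3 0 1 2) (Sum.inl 1) (Sum.inl 2) ?_ ?_ 1 sp4_gen']
  · rfl
  · show c3 0 1 2 0 = 1
    unfold c3
    rw [Equiv.Perm.mul_apply, Equiv.swap_apply_of_ne_of_ne ne01 ne02, Equiv.swap_apply_left]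
  · show c3 0 1 2 1 = 2
    unfold c3
    rw [Equiv.Perm.mul_apply, Equiv.swap_apply_left, Equiv.swap_apply_of_ne_of_ne ne02.symm ne12.symm]

theorem x02 (sp4_gen' : Subgroup.closure ({g : Sp 2 F | ∃ (a : I 2) (t : F), ab a = 0 ∧ g = X a (ng a) t} ∪
      {PM F (Equiv.swap 0 1), vv F}) = ⊤) :
    G.x (Sum.inl 0) (Sum.inl 2) 1 = G.θ (Equiv.swap 1 2) * G.ι (vv F) * (G.θ (Equiv.swap 1 2))⁻¹ := by
  rw [← x_wd_short G (Equiv.swap 1 2) (Sum.inl 0) (Sum.inl 2) ?_ ?_ 1 sp4_gen']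
  · rfl
  · show Equiv.swap 1 2 0 = 0
    exact Equiv.swap_apply_of_ne_of_ne ne01 ne02
  · show Equiv.swap 1 2 1 = 2
    exact Equiv.swap_apply_left _ _

theorem g_h6 (sp4_gen' : Subgroup.closure ({g : Sp 2 F | ∃ (a : I 2) (t : F), ab a = 0 ∧ g = X a (ng a) t} ∪
      {PM F (Equiv.swap 0 1), vv F}) = ⊤) :
    G.x (Sum.inl 0) (Sum.inl 1) 1 * G.x (Sum.inl 1) (Sum.inl 2) 1 *
    (G.x (Sum.inl 0) (Sum.inl 1) 1)⁻¹ * (G.x (Sum.inl 1) (Sum.inl 2) 1)⁻¹ =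
      G.x (Sum.inl 0) (Sum.inl 2) 1 := by
  rw [x01 G sp4_gen', x12 G sp4_gen', x02 G sp4_gen']
  exact G.k6

theorem g_h7 (sp4_gen' : Subgroup.closure ({g : Sp 2 F | ∃ (a : I 2) (t : F), ab a = 0 ∧ g = X a (ng a) t} ∪
      {PM F (Equiv.swap 0 1), vv F}) = ⊤) :
    Commute (G.x (Sum.inl 0) (Sum.inl 1) 1) (G.x (Sum.inl 0) (Sum.inl 2) 1) := by
  rw [x01 G sp4_gen', x02 G sp4_gen']
  exact G.k7

end Cfsg.Agent.Lib.Helper54SpdL1
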