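import Cfsg.Agent.Lib.Helper43SpDefs2

set_option autoImplicit false

namespace Cfsg.Agent.Lib.Helper54Spdext2

open Matrix Cfsg.Agent.Lib.Helper43BP Cfsg.Agent.Lib.Helper43St Cfsg.Agent.Lib.Helper43Sp

variable {m : ℕ}

-- piece `dext2`
theorem ext2p (i j : Fin (m + 3)) (hij : i ≠ j) : ∃ σ : Equiv.Perm (Fin (m + 3)), σ 0 = i ∧ σ 1 = j := by
  have h01 : (0 : Fin (m + 3)) ≠ 1 := by
    intro h; have := congrArg Fin.val h; simp at this
  have hk : Equiv.swap 0 i 1 ≠ i := by
    intro h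
    have : Equiv.swap 0 i 1 = Equiv.swap 0 i 0 := by rw [h, Equiv.swap_apply_left]
    exact h01 ((Equiv.swap 0 i).injective this).symm
  refine ⟨Equiv.swap (Equiv.swap 0 i 1) j * Equiv.swap 0 i, ?_, ?_⟩
  · rw [Equiv.Perm.mul_apply, Equiv.swap_apply_left, Equiv.swap_apply_of_ne_of_ne hk.symm hij]
  · rw [Equiv.Perm.mul_apply, Equiv.swap_apply_left]

-- piece `pext3`
theorem ext3p (i j k : Fin (m + 3)) (hij : i ≠ j) (hik : i ≠ k) (hjk : j ≠ k) :
    ∃ ρ : Equiv.Perm (Fin (m + 3)), ρ 0 = i ∧ ρ 1 = j ∧ ρ 2 = k := by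
  obtain ⟨σ, h0, h1⟩ := ext2p i j hij
  have h2v : ((2 : Fin (m + 3)) : ℕ) = 2 := by
    show 2 % (m + 3) = 2
    exact Nat.mod_eq_of_lt (by omega)
  have h02 : (0 : Fin (m + 3)) ≠ 2 := by
    intro h; have := congrArg Fin.val h; rw [h2v] at this; simp at this
  have h12 : (1 : Fin (m + 3)) ≠ 2 := by
    intro h; have := congrArg Fin.val h; rw [h2v] at this; simp at this
  have hi : i ≠ σ 2 := by rw [← h0]; exact σ.injective.ne h02
  have hj : j ≠ σ 2 := by rw [← h1]; exact σ.injective.ne h12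
  refine ⟨Equiv.swap (σ 2) k * σ, ?_, ?_, ?_⟩
  · rw [Equiv.Perm.mul_apply, h0, Equiv.swap_apply_of_ne_of_ne hi hik]
  · rw [Equiv.Perm.mul_apply, h1, Equiv.swap_apply_of_ne_of_ne hj hjk]
  · rw [Equiv.Perm.mul_apply, Equiv.swap_apply_left]

-- piece `ecard`
theorem relS_card (m : ℕ) (F : Type*) [Field F] (a1 a2 b1 b2 c1 c2 : Equiv.Perm (Fin (m + 3))) (ζ : F) :
    (relS m F a1 a2 b1 b2 c1 c2 ζ).card ≤ 16 := by
  classical
  have two : ∀ x y : Equiv.Perm (Fin (m + 3)), ({x, y} : Finset (Equiv.Perm (Fin (m + 3)))).card ≤ 2 :=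
    fun x y => Finset.card_le_two
  have three : (gl F ζ).card ≤ 3 := Finset.card_le_three
  unfold relS
  refine (Finset.card_union_le _ _).trans ?_
  refine (Nat.add_le_add_right (Finset.card_union_le _ _) _).trans ?_
  refine (Nat.add_le_add_right (Nat.add_le_add_right (Finset.card_union_le _ _) _) _).trans ?_
  refine (Nat.add_le_add_right (Nat.add_le_add_right (Nat.add_le_add_right
    (Finset.card_union_le _ _) _) _) _).trans ?_
  refine (Nat.add_le_add_right (Nat.add_le_add_right (Nat.add_le_add_right (Nat.add_le_add_right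
    (Finset.card_union_le _ _) _) _) _) _).trans ?_
  refine (Nat.add_le_add_right (Nat.add_le_add_right (Nat.add_le_add_right (Nat.add_le_add_right
    (Nat.add_le_add_right (Finset.card_union_le _ _) _) _) _) _) _).trans ?_
  have e1 := (Finset.card_image_le (s := ({a1, a2} : Finset (Equiv.Perm (Fin (m + 3)))))
    (f := fun a => cjw (jr (PM F (Equiv.swap 0 1))) (aw F a) *
      (aw F (Equiv.swap 0 1 * a * Equiv.swap 0 1))⁻¹)).trans (two a1 a2)
  have e2 := (Finset.card_image_le (s := (({b1, b2} : Finset (Equiv.Perm (Fin (m + 3)))) ×ˢ gl F ζ))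
    (f := fun z => cmw (hw F z.1) (jr z.2)))
  rw [Finset.card_product] at e2
  have e2' : (({b1, b2} : Finset (Equiv.Perm (Fin (m + 3))))).card * (gl F ζ).card ≤ 6 :=
    (Nat.mul_le_mul (two b1 b2) three)
  have e3 := (Finset.card_image_le (s := ({c1, c2} : Finset (Equiv.Perm (Fin (m + 3)))))
    (f := fun c => cmw (hw F c) (jr (vv F)))).trans (two c1 c2)
  have e4 := (Finset.card_image_le (s := gl F ζ)
    (f := fun g => cmw (cjw (hw F (Equiv.swap 0 2)) (jr g)) (jr (vv F) : CQ m F))).trans three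
  have e5 : (if m = 0 then (∅ : Finset (CQ m F)) else
    {cmw (jr (vv F)) (cjw (hw F (Equiv.swap 0 2 * Equiv.swap 1 3)) (jr (vv F)))}).card ≤ 1 := by
    split_ifs <;> simp
  simp only [Finset.card_singleton]
  omega

end Cfsg.Agent.Lib.Helper54Spdext2
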