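import Cfsg.Agent.Lib.Helper43SpDefs2
import Cfsg.Agent.Lib.Helper65SpAPI
import Cfsg.Agent.Lib.Helper36SpPmx

set_option autoImplicit false

/-! Project 243 wave 3 (S2292), piece `dquad`: `Sp_4` on every ordered pair of indices.
Extra hypotheses at the end: `x_wd_short`, `x_wd_long` (piece `dxwd`). -/

namespace Cfsg.Agent.Lib.Helper73SpDquad

open Matrix Cfsg.Agent.Lib.Helper43BP Cfsg.Agent.Lib.Helper43St Cfsg.Agent.Lib.Helper43Sp

variable {m : ℕ} {F : Type*} [Field F] {P : Type*} [Group P] (G : GC m F P)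

theorem PMX (σ : Equiv.Perm (Fin 2)) (a b : I 2) (h : a ≠ b) (t : F) :
    (PM F σ : Sp 2 F) * X a b t * (PM F σ)⁻¹ = X (pmI σ a) (pmI σ b) t :=
  Cfsg.Agent.Lib.Helper36SpPmx.PM_X σ a b h t Cfsg.Agent.Lib.Helper65SpAPI.X_val

/-- conjugating with `σ (0 1)` instead of `σ` -/
theorem conj_swap (σ : Equiv.Perm (Fin (m + 3))) (a b : I 2) (h : a ≠ b) (t : F) :
    G.θ (σ * Equiv.swap 0 1) * G.ι (X a b t) * (G.θ (σ * Equiv.swap 0 1))⁻¹ =
      G.θ σ * G.ι (X (pmI (Equiv.swap 0 1) a) (pmI (Equiv.swap 0 1) b) t) * (G.θ σ)⁻¹ := by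
  rw [← PMX (Equiv.swap 0 1) a b h t, map_mul, G.k1, map_mul, map_mul, map_inv]
  group

theorem g_quad (σ : Equiv.Perm (Fin (m + 3))) (c d : I 2) (hcd : c ≠ d) (t : F)
    (x_wd_short : ∀ (σ : Equiv.Perm (Fin (m + 3))) (a b : I (m + 3)), σ 0 = ab a → σ 1 = ab b →
      ∀ t : F, G.θ σ * G.ι (X (lw 0 a) (lw 1 b) t) * (G.θ σ)⁻¹ = G.x a b t)
    (x_wd_long : ∀ (σ : Equiv.Perm (Fin (m + 3))) (a : I (m + 3)), σ 0 = ab a →
      ∀ t : F, G.θ σ * G.ι (X (lw 0 a) (ng (lw 0 a)) t) * (G.θ σ)⁻¹ = G.x a (ng a) t) :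
    G.θ σ * G.ι (X c d t) * (G.θ σ)⁻¹ = G.x (e2 (σ 0) (σ 1) c) (e2 (σ 0) (σ 1) d) t := by
  have h0 : (σ * Equiv.swap 0 1 : Equiv.Perm (Fin (m + 3))) 0 = σ 1 := by simp
  have h1 : (σ * Equiv.swap 0 1 : Equiv.Perm (Fin (m + 3))) 1 = σ 0 := by simp
  have s01 : ∀ (c d : I 2), ab c = 0 → ab d = 1 →
      G.θ σ * G.ι (X c d t) * (G.θ σ)⁻¹ = G.x (e2 (σ 0) (σ 1) c) (e2 (σ 0) (σ 1) d) t := by
    intro c d hc hd
    have := x_wd_short σ (e2 (σ 0) (σ 1) c) (e2 (σ 0) (σ 1) d)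
      (by rcases c with c | c <;> simp only [ab, Sum.elim_inl, Sum.elim_inr, id] at hc <;> subst hc <;> rfl)
      (by rcases d with d | d <;> simp only [ab, Sum.elim_inl, Sum.elim_inr, id] at hd <;> subst hd <;> rfl) t
    rw [← this]
    have e1 : lw 0 (e2 (σ 0) (σ 1) c) = c := by
      rcases c with c | c <;> simp only [ab, Sum.elim_inl, Sum.elim_inr, id] at hc <;> subst hc <;> rfl
    have e2' : lw 1 (e2 (σ 0) (σ 1) d) = d := by
      rcases d with d | d <;> simp only [ab, Sum.elim_inl, Sum.elim_inr, id] at hd <;> subst hd <;> rfl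
    rw [e1, e2']
  have s10 : ∀ (c d : I 2), ab c = 1 → ab d = 0 →
      G.θ σ * G.ι (X c d t) * (G.θ σ)⁻¹ = G.x (e2 (σ 0) (σ 1) c) (e2 (σ 0) (σ 1) d) t := by
    intro c d hc hd
    have := x_wd_short (σ * Equiv.swap 0 1) (e2 (σ 0) (σ 1) c) (e2 (σ 0) (σ 1) d)
      (by rw [h0]; rcases c with c | c <;> simp only [ab, Sum.elim_inl, Sum.elim_inr, id] at hc <;> subst hc <;> rfl)
      (by rw [h1]; rcases d with d | d <;> simp only [ab, Sum.elim_inl, Sum.elim_inr, id] at hd <;> subst hd <;> rfl) t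
    rw [← this, conj_swap]
    · have e1 : pmI (Equiv.swap 0 1) (lw 0 (e2 (σ 0) (σ 1) c)) = c := by
        rcases c with c | c <;> simp only [ab, Sum.elim_inl, Sum.elim_inr, id] at hc <;> subst hc <;>
          simp [pmI, lw, e2]
      have e2' : pmI (Equiv.swap 0 1) (lw 1 (e2 (σ 0) (σ 1) d)) = d := by
        rcases d with d | d <;> simp only [ab, Sum.elim_inl, Sum.elim_inr, id] at hd <;> subst hd <;>
          simp [pmI, lw, e2]
      rw [e1, e2']
    · rcases c with c | c <;> rcases d with d | d <;> simp [lw, e2]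
  have s00 : ∀ (c : I 2), ab c = 0 →
      G.θ σ * G.ι (X c (ng c) t) * (G.θ σ)⁻¹ = G.x (e2 (σ 0) (σ 1) c) (e2 (σ 0) (σ 1) (ng c)) t := by
    intro c hc
    have := x_wd_long σ (e2 (σ 0) (σ 1) c)
      (by rcases c with c | c <;> simp only [ab, Sum.elim_inl, Sum.elim_inr, id] at hc <;> subst hc <;> rfl) t
    have e1 : lw 0 (e2 (σ 0) (σ 1) c) = c := by
      rcases c with c | c <;> simp only [ab, Sum.elim_inl, Sum.elim_inr, id] at hc <;> subst hc <;> rfl
    have e3 : e2 (σ 0) (σ 1) (ng c) = ng (e2 (σ 0) (σ 1) c) := by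
      rcases c with c | c <;> rfl
    rw [e3, ← this, e1]
  have s11 : ∀ (c : I 2), ab c = 1 →
      G.θ σ * G.ι (X c (ng c) t) * (G.θ σ)⁻¹ = G.x (e2 (σ 0) (σ 1) c) (e2 (σ 0) (σ 1) (ng c)) t := by
    intro c hc
    have := x_wd_long (σ * Equiv.swap 0 1) (e2 (σ 0) (σ 1) c)
      (by rw [h0]; rcases c with c | c <;> simp only [ab, Sum.elim_inl, Sum.elim_inr, id] at hc <;> subst hc <;> rfl) t
    have e3 : e2 (σ 0) (σ 1) (ng c) = ng (e2 (σ 0) (σ 1) c) := by
      rcases c with c | c <;> rfl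
    rw [e3, ← this, conj_swap]
    · have e1 : pmI (Equiv.swap 0 1) (lw 0 (e2 (σ 0) (σ 1) c)) = c := by
        rcases c with c | c <;> simp only [ab, Sum.elim_inl, Sum.elim_inr, id] at hc <;> subst hc <;>
          simp [pmI, lw, e2]
      have e2' : pmI (Equiv.swap 0 1) (ng (lw 0 (e2 (σ 0) (σ 1) c))) = ng c := by
        rcases c with c | c <;> simp only [ab, Sum.elim_inl, Sum.elim_inr, id] at hc <;> subst hc <;>
          simp [pmI, lw, e2, ng]
      rw [e1, e2']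
    · rcases c with c | c <;> simp [lw, e2, ng]
  have hab2 : ∀ z : I 2, ab z = 0 ∨ ab z = 1 := by
    intro z
    generalize ab z = k
    fin_cases k <;> simp
  have hng : ∀ c d : I 2, c ≠ d → ab c = ab d → d = ng c := by
    intro c d hcd h
    rcases c with c | c <;> rcases d with d | d <;>
      simp only [ab, Sum.elim_inl, Sum.elim_inr, id] at h <;> subst h
    · exact absurd rfl hcd
    · rfl
    · rfl
    · exact absurd rfl hcd
  rcases hab2 c with hc | hc <;> rcases hab2 d with hd | hd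
  · rw [hng c d hcd (by rw [hc, hd])]
    exact s00 c hc
  · exact s01 c d hc hd
  · exact s10 c d hc hd
  · rw [hng c d hcd (by rw [hc, hd])]
    exact s11 c hc

end Cfsg.Agent.Lib.Helper73SpDquad
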