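import Cfsg.Agent.Lib.Helper43SpDefs2
import Cfsg.Agent.Lib.Helper36SpTWire
import Cfsg.Agent.Lib.Helper54SpdL1
import Cfsg.Agent.Lib.Helper73SpDquad
import Cfsg.Agent.Lib.Helper54Spdext2
import Cfsg.Agent.Lib.Helper77SpEmb
import Cfsg.Agent.Lib.Helper52SpDsp4gen
import Cfsg.Agent.Lib.Helper36SpPmx

set_option autoImplicit false

/-! Project 243, piece `dgen` (hypothesis free; also hypothesis free wrappers of `x_equiv`, `g_quad`). -/

namespace Cfsg.Agent.Lib.Helper52SpDgen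

open Matrix Cfsg.Agent.Lib.Helper43BP Cfsg.Agent.Lib.Helper43St Cfsg.Agent.Lib.Helper43Sp

variable {m : ℕ} {F : Type*} [Field F] {P : Type*} [Group P] (G : GC m F P)

theorem x_equiv (ρ : Equiv.Perm (Fin (m + 3))) (a b : I (m + 3)) (hab : a ≠ b) (t : F) :
    G.θ ρ * G.x a b t * (G.θ ρ)⁻¹ = G.x (pmI ρ a) (pmI ρ b) t :=
  Cfsg.Agent.Lib.Helper54SpdL1.x_equiv G ρ a b hab t (Cfsg.Agent.Lib.Helper52SpDsp4gen.sp4_gen' F)

theorem g_quad (σ : Equiv.Perm (Fin (m + 3))) (c d : I 2) (hcd : c ≠ d) (t : F) :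
    G.θ σ * G.ι (X c d t) * (G.θ σ)⁻¹ = G.x (e2 (σ 0) (σ 1) c) (e2 (σ 0) (σ 1) d) t :=
  Cfsg.Agent.Lib.Helper73SpDquad.g_quad G σ c d hcd t
    (fun σ a b ha hb t => Cfsg.Agent.Lib.Helper54SpdL1.x_wd_short G σ a b ha hb t
      (Cfsg.Agent.Lib.Helper52SpDsp4gen.sp4_gen' F))
    (fun σ a ha t => Cfsg.Agent.Lib.Helper54SpdL1.x_wd_long G σ a ha t)

-- piece `dgen`
theorem g_gen : Subgroup.closure {g | ∃ a b t, a ≠ b ∧ g = G.x a b t} = ⊤ := by
  set K := Subgroup.closure {g | ∃ a b t, a ≠ b ∧ g = G.x a b t} with hK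
  have h01 : (0 : Fin (m + 3)) ≠ 1 := by
    intro h; have := congrArg Fin.val h; simp at this
  -- (1) normalised by θ
  have n1 : ∀ (ρ : Equiv.Perm (Fin (m + 3))) (k : P), k ∈ K → G.θ ρ * k * (G.θ ρ)⁻¹ ∈ K := by
    intro ρ k hk
    induction hk using Subgroup.closure_induction with
    | mem y hy =>
      obtain ⟨a, b, t, hab, rfl⟩ := hy
      rw [x_equiv G ρ a b hab t]
      exact Subgroup.subset_closure ⟨_, _, t,
        fun e => hab (Cfsg.Agent.Lib.Helper36SpPmx.pmI_injective ρ e), rfl⟩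
    | one => simp [one_mem]
    | mul x y _ _ hx hy =>
      have e : G.θ ρ * (x * y) * (G.θ ρ)⁻¹ =
          (G.θ ρ * x * (G.θ ρ)⁻¹) * (G.θ ρ * y * (G.θ ρ)⁻¹) := by group
      rw [e]
      exact mul_mem hx hy
    | inv x _ hx =>
      have e : G.θ ρ * x⁻¹ * (G.θ ρ)⁻¹ = (G.θ ρ * x * (G.θ ρ)⁻¹)⁻¹ := by group
      rw [e]
      exact inv_mem hx
  -- (2) the image of ι
  have n2 : ∀ g : Sp 2 F, G.ι g ∈ K := by
    intro g
    have hg : g ∈ Subgroup.closure {g : Sp 2 F | ∃ a b t, a ≠ b ∧ g = X a b t} := by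
      rw [Cfsg.Agent.Lib.Helper36SpTWire.sp_gen 2 F]; trivial
    induction hg using Subgroup.closure_induction with
    | mem y hy =>
      obtain ⟨c, d, t, hcd, rfl⟩ := hy
      have := g_quad G 1 c d hcd t
      rw [map_one, one_mul, inv_one, mul_one] at this
      rw [this]
      exact Subgroup.subset_closure ⟨_, _, t,
        fun e => hcd (Cfsg.Agent.Lib.Helper77SpEmb.e2_inj _ _ h01 e), rfl⟩
    | one => rw [map_one]; exact one_mem _
    | mul x y _ _ hx hy => rw [map_mul]; exact mul_mem hx hy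
    | inv x _ hx => rw [map_inv]; exact inv_mem hx
  -- (3) transpositions
  have n3 : ∀ i j : Fin (m + 3), i ≠ j → G.θ (Equiv.swap i j) ∈ K := by
    intro i j hij
    obtain ⟨ρ, h0, h1⟩ := Cfsg.Agent.Lib.Helper54Spdext2.ext2p i j hij
    have e : Equiv.swap i j = ρ * Equiv.swap 0 1 * ρ⁻¹ := by
      rw [← h0, ← h1, Equiv.swap_apply_apply]
    rw [e, map_mul, map_mul, map_inv]
    apply n1
    rw [G.k1]
    exact n2 _
  -- (4) all permutations
  have n4 : ∀ σ : Equiv.Perm (Fin (m + 3)), G.θ σ ∈ K := by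
    intro σ
    induction σ using Equiv.Perm.swap_induction_on with
    | one => rw [map_one]; exact one_mem _
    | swap_mul f x y hxy hf => rw [map_mul]; exact mul_mem (n3 x y hxy) hf
  rw [eq_top_iff, ← G.gen, Subgroup.closure_le]
  rintro z (⟨σ, rfl⟩ | ⟨g, rfl⟩)
  · exact n4 σ
  · exact n2 g

end Cfsg.Agent.Lib.Helper52SpDgen
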