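import Cfsg.Agent.Lib.Helper53Syl
import Cfsg.Agent.Lib.Helper38HH

set_option autoImplicit false

/-! The preimage of `O_p(X/M)`, and the "centric radical" criterion at type level. -/

namespace Cfsg.Agent.Lib.Helper53CR

open Cfsg Subgroup Cfsg.Agent.Lib.Helper53Basic Cfsg.Agent.Lib.Helper53Rel Cfsg.Agent.Lib.Helper53Syl

variable {X : Type*} [Group X] {p : ℕ}

/-- preimage of `O_p(X/M)` -/
def pre (p : ℕ) (M : Subgroup X) [M.Normal] : Subgroup X :=
  (pCore p (X ⧸ M)).comap (QuotientGroup.mk' M)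

instance pre_normal (M : Subgroup X) [M.Normal] : (pre p M).Normal := by
  unfold pre
  have : (pCore p (X ⧸ M)).Normal := inferInstance
  exact this.comap _

theorem le_pre (M : Subgroup X) [M.Normal] : M ≤ pre p M := by
  intro x hx
  unfold pre
  rw [mem_comap]
  have : QuotientGroup.mk' M x = 1 := (QuotientGroup.eq_one_iff x).2 hx
  rw [this]; exact one_mem _

theorem exists_pow_mem_of_mem_pre {M : Subgroup X} [M.Normal] {l : X} (hl : l ∈ pre p M) :
    ∃ k : ℕ, l ^ (p ^ k) ∈ M := by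
  have h1 : QuotientGroup.mk' M l ∈ pCore p (X ⧸ M) := hl
  obtain ⟨k, hk⟩ := (pCore_isPGroup p (X ⧸ M)) ⟨_, h1⟩
  refine ⟨k, ?_⟩
  have h2 : (QuotientGroup.mk' M l) ^ (p ^ k) = 1 := by
    simpa only [Subgroup.coe_pow, Subgroup.coe_one] using congrArg Subtype.val hk
  rw [← map_pow] at h2
  exact (QuotientGroup.eq_one_iff _).1 h2

theorem le_pre_of_forall {M Y : Subgroup X} [M.Normal] (hY : Y.Normal)
    (h : ∀ y ∈ Y, ∃ k : ℕ, y ^ (p ^ k) ∈ M) : Y ≤ pre p M := by
  have h1 : (Y.map (QuotientGroup.mk' M)).Normal := hY.map _ (QuotientGroup.mk'_surjective M)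
  have h2 : IsPGroup p (Y.map (QuotientGroup.mk' M)) := by
    rintro ⟨_, y, hy, rfl⟩
    obtain ⟨k, hk⟩ := h y hy
    refine ⟨k, ?_⟩
    apply Subtype.ext
    show (QuotientGroup.mk' M y) ^ (p ^ k) = 1
    rw [← map_pow]
    exact (QuotientGroup.eq_one_iff _).2 hk
  intro y hy
  exact le_pCore h1 h2 (mem_map_of_mem _ hy)

theorem pPrimePCore_eq_pre : pPrimePCore p X = pre p (pPrimeCore p X) := rfl

variable [Finite X] [Fact p.Prime]

/-- if `Z` is a central Sylow `p`-subgroup of the normal subgroup `C`, then `C / O_{p'}(X)` is a `p`-group -/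
theorem key {C Z : Subgroup X} (hC : C.Normal) (hZ : IsSyl p Z C)
    (hcen : ∀ z ∈ Z, ∀ c ∈ C, z * c = c * z) (hDC : pPrimeCore p X ≤ C) :
    ∀ c ∈ C, ∃ k : ℕ, c ^ (p ^ k) ∈ pPrimeCore p X := by
  have hp : p.Prime := Fact.out
  set D := pPrimeCore p X with hD
  set π := QuotientGroup.mk' D with hπ
  have hπs : Function.Surjective π := QuotientGroup.mk'_surjective D
  have hle := Cfsg.Agent.Lib.Helper38HH.le_of_central_of_coprime (p := p)
    (Cfsg.Agent.Lib.Helper60Core.pPrimeCore_quotient_eq_bot (G := X) p)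
    (D := C.map π) (Z := Z.map π) (hC.map π hπs) (map_mono hZ.le) (hZ.isPGroup.map π)
    (by
      rintro _ ⟨z, hz, rfl⟩ _ ⟨c, hc, rfl⟩
      rw [← map_mul, ← map_mul, hcen z hz c hc])
    (by
      rw [relIndex_map_map]
      have h1 : (Z ⊔ π.ker).relIndex (C ⊔ π.ker) ∣ Z.relIndex C := by
        rw [hπ, QuotientGroup.ker_mk', sup_eq_left.2 hDC]
        exact relIndex_dvd_of_le_left C le_sup_left
      exact Nat.Coprime.coprime_dvd_left h1 ((Nat.Prime.coprime_iff_not_dvd hp).2 hZ.2.2).symm)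
  intro c hc
  have h1 : π c ∈ Z.map π := hle (mem_map_of_mem π hc)
  obtain ⟨k, hk⟩ := (hZ.isPGroup.map π) ⟨_, h1⟩
  refine ⟨k, ?_⟩
  have h2 : (π c) ^ (p ^ k) = 1 := by
    simpa only [Subgroup.coe_pow, Subgroup.coe_one] using congrArg Subtype.val hk
  rw [← map_pow] at h2
  exact (QuotientGroup.eq_one_iff _).1 h2


theorem main {H C : Subgroup X} [hH : H.Normal] [hC : C.Normal] (hHp : IsPGroup p H)
    (hCdef : ∀ x, x ∈ C ↔ ∀ h ∈ H, h * x = x * h) {T : Subgroup X} (hT : IsSyl p T ⊤) :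
    (H ≤ pre p C ∧ ¬ p ∣ H.relIndex (pre p C)) ↔ (T ⊓ C ≤ H ∧ pPrimePCore p X = H ⊔ C) := by
  have hp : p.Prime := Fact.out
  have hnorm : ∀ N : Subgroup X, N.Normal → ∀ L : Subgroup X, L ≤ normalizer (N : Set X) := by
    intro N hN L
    rw [normalizer_eq_top_iff.2 hN]
    exact le_top
  set D := pPrimeCore p X with hD
  have hDn : D.Normal := inferInstance
  have hDcop : (Nat.card D).Coprime p := Cfsg.Agent.Lib.Helper60Core.card_pPrimeCore_coprime p
  have hHT : H ≤ T := by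
    have h1 : IsPGroup p ((H ⊔ T : Subgroup X)) :=
      hHp.to_sup_of_normal_left' hT.isPGroup (hnorm H hH _)
    have h2 := hT.eq_of_le h1 le_top le_sup_right
    rw [← h2]; exact le_sup_left
  have hDC : D ≤ C := by
    intro d hd
    rw [hCdef]
    intro h hh
    have h1 : h * d * h⁻¹ * d⁻¹ = 1 := by
      have h2 : h * d * h⁻¹ * d⁻¹ ∈ D := D.mul_mem (hDn.conj_mem d hd h) (D.inv_mem hd)
      have h3 : h * d * h⁻¹ * d⁻¹ ∈ H := by
        have := H.mul_mem hh (hH.conj_mem h⁻¹ (H.inv_mem hh) d)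
        convert this using 1
        group
      obtain ⟨k, hk⟩ := hHp ⟨_, h3⟩
      have h4 : (h * d * h⁻¹ * d⁻¹) ^ (p ^ k) = 1 := by
        simpa only [Subgroup.coe_pow, Subgroup.coe_one] using congrArg Subtype.val hk
      exact Cfsg.Agent.Lib.Helper38HH.eq_one_of_pow_coprime
        (Cfsg.Agent.Lib.Helper38HH.pow_card_of_mem h2) h4 (hDcop.pow_right k)
    calc h * d = (h * d * h⁻¹ * d⁻¹) * (d * h) := by group
      _ = d * h := by rw [h1, one_mul]
  have hcen : ∀ z ∈ H ⊓ C, ∀ c ∈ C, z * c = c * z := by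
    intro z hz c hc
    exact (hCdef c).1 hc z (mem_inf.1 hz).1
  have hHCn : (H ⊔ C).Normal := inferInstance
  have hpowH : ∀ M : Subgroup X, M.Normal → (∀ c ∈ C, ∃ k : ℕ, c ^ (p ^ k) ∈ M) →
      ∀ y ∈ H ⊔ C, ∃ k : ℕ, y ^ (p ^ k) ∈ M := by
    intro M hM hc y hy
    have h1 : IsPGroup p ((H ⊔ C).map (QuotientGroup.mk' M)) := by
      rw [Subgroup.map_sup]
      have h2 : IsPGroup p (C.map (QuotientGroup.mk' M)) := by
        rintro ⟨_, c, hcC, rfl⟩
        obtain ⟨k, hk⟩ := hc c hcC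
        refine ⟨k, ?_⟩
        apply Subtype.ext
        show (QuotientGroup.mk' M c) ^ (p ^ k) = 1
        rw [← map_pow]
        exact (QuotientGroup.eq_one_iff _).2 hk
      have h3 : (H.map (QuotientGroup.mk' M)).Normal := hH.map _ (QuotientGroup.mk'_surjective M)
      exact (hHp.map _).to_sup_of_normal_left h2
    obtain ⟨k, hk⟩ := h1 ⟨_, mem_map_of_mem _ hy⟩
    refine ⟨k, ?_⟩
    have h2 : (QuotientGroup.mk' M y) ^ (p ^ k) = 1 := by
      simpa only [Subgroup.coe_pow, Subgroup.coe_one] using congrArg Subtype.val hk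
    rw [← map_pow] at h2
    exact (QuotientGroup.eq_one_iff _).1 h2
  have hHCN : H ⊔ C ≤ pre p C :=
    le_pre_of_forall hHCn (hpowH C hC (fun c hc => ⟨0, by simpa using hc⟩))
  have hHN : H ≤ pre p C := le_sup_left.trans hHCN
  have hKN : pPrimePCore p X ≤ pre p C := by
    rw [pPrimePCore_eq_pre]
    apply le_pre_of_forall inferInstance
    intro y hy
    obtain ⟨k, hk⟩ := exists_pow_mem_of_mem_pre hy
    exact ⟨k, hDC hk⟩
  have hfinal : IsSyl p (H ⊓ C) C → H ⊔ C ≤ pPrimePCore p X ∧ pre p C ≤ pPrimePCore p X := by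
    intro hZ
    have hkey := key hC hZ hcen hDC
    rw [pPrimePCore_eq_pre]
    refine ⟨le_pre_of_forall hHCn (hpowH D hDn hkey), le_pre_of_forall inferInstance ?_⟩
    intro y hy
    obtain ⟨k, hk⟩ := exists_pow_mem_of_mem_pre hy
    obtain ⟨j, hj⟩ := hkey _ hk
    refine ⟨k + j, ?_⟩
    rw [pow_add, pow_mul]
    exact hj
  constructor
  · rintro ⟨-, hnd⟩
    have hsyl : IsSyl p H (pre p C) := ⟨hHN, hHp, hnd⟩
    have hZ : IsSyl p (H ⊓ C) C := hsyl.inf_normal (le_pre C) (hnorm C hC _)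
    refine ⟨?_, ?_⟩
    · have h1 : IsPGroup p (((T ⊓ C) ⊔ H : Subgroup X)) :=
        hT.isPGroup.to_le (sup_le inf_le_left hHT)
      have h2 := hsyl.eq_of_le h1 (sup_le (inf_le_right.trans (le_pre C)) hHN) le_sup_right
      rw [← h2]; exact le_sup_left
    · have hN : C ⊔ H = pre p C :=
        hsyl.sup_eq (le_pre C) (hnorm C hC _) (fun l hl => exists_pow_mem_of_mem_pre hl)
      apply le_antisymm
      · rw [sup_comm, hN]; exact hKN
      · exact (hfinal hZ).1
  · rintro ⟨hTC, hK⟩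
    have hZ' : IsSyl p (T ⊓ C) C := hT.inf_normal le_top (hnorm C hC _)
    have hZeq : T ⊓ C = H ⊓ C :=
      le_antisymm (le_inf hTC inf_le_right) (inf_le_inf_right C hHT)
    rw [hZeq] at hZ'
    have hN : pre p C = H ⊔ C := le_antisymm ((hfinal hZ').2.trans hK.le) hHCN
    refine ⟨hHN, ?_⟩
    rw [hN, relIndex_sup_left, ← inf_relIndex_right]
    exact hZ'.2.2

end Cfsg.Agent.Lib.Helper53CR
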