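import Mathlib
import Cfsg.Agent.Lib.Helper3PGroup

set_option autoImplicit false

/-! Relative (G-invariant) version of Thompson's critical subgroup, and the small exponent refinement. -/

namespace Cfsg.Agent.Lib.Helper53Crit

open scoped commutatorElement

variable {P : Type*} [Group P]

/-- power formula in class two -/
theorem pow_mul_class_two {x y c : P} (h : y * x = x * y * c) (hy : Commute c y) (k : ℕ) :
    y ^ k * x = x * y ^ k * c ^ k := by
  induction k with
  | zero => simp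
  | succ k ih =>
    calc y ^ (k+1) * x = y ^ k * (y * x) := by rw [pow_succ, mul_assoc]
      _ = (y ^ k * x) * y * c := by rw [h]; group
      _ = x * y ^ k * c ^ k * y * c := by rw [ih]
      _ = x * y ^ k * (c ^ k * y) * c := by group
      _ = x * y ^ k * (y * c ^ k) * c := by rw [(hy.pow_left k).eq]
      _ = x * y ^ (k+1) * c ^ (k+1) := by rw [pow_succ, pow_succ]; group

theorem mul_pow_class_two {x y c : P} (h : y * x = x * y * c) (hx : Commute c x) (hy : Commute c y)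
    (n : ℕ) : (x * y) ^ n = x ^ n * y ^ n * c ^ (n.choose 2) := by
  induction n with
  | zero => simp
  | succ n ih =>
    have h1 := pow_mul_class_two h hy n
    have e1 : (n + 1).choose 2 = n + n.choose 2 := by
      rw [Nat.choose_succ_succ' n 1, Nat.choose_one_right]
    have c1 : c ^ (n.choose 2) * x = x * c ^ (n.choose 2) := (hx.pow_left _).eq
    have c2 : c ^ (n.choose 2) * y = y * c ^ (n.choose 2) := (hy.pow_left _).eq
    have c3 : c ^ n * y = y * c ^ n := (hy.pow_left _).eq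
    calc (x * y) ^ (n + 1) = (x * y) ^ n * (x * y) := pow_succ _ _
      _ = x ^ n * y ^ n * (c ^ (n.choose 2) * x) * y := by rw [ih]; group
      _ = x ^ n * (y ^ n * x) * (c ^ (n.choose 2) * y) := by rw [c1]; group
      _ = x ^ n * x * y ^ n * (c ^ n * y) * c ^ (n.choose 2) := by rw [h1, c2]; group
      _ = x ^ (n + 1) * y ^ (n + 1) * c ^ ((n + 1).choose 2) := by
          rw [c3, e1, pow_add, pow_succ, pow_succ]; group

/-- an automorphism of order prime to `m` fixing `x⁻¹ α(x)`, an element of order dividing `m`, fixes `x` -/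
theorem fix_of_chain {α : MulAut P} {x : P} {m : ℕ}
    (hco : (orderOf α).Coprime m)
    (hn : α (x⁻¹ * α x) = x⁻¹ * α x) (hm : (x⁻¹ * α x) ^ m = 1) : α x = x := by
  set n := x⁻¹ * α x with hndef
  have hax : α x = x * n := by rw [hndef]; group
  have h1 : ∀ k : ℕ, (α ^ k) x = x * n ^ k := by
    intro k
    induction k with
    | zero => simp
    | succ k ih =>
      rw [pow_succ', MulAut.mul_apply, ih, map_mul, map_pow, hn, hax, pow_succ', mul_assoc]
  have h2 : n ^ orderOf α = 1 := by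
    have := h1 (orderOf α)
    rw [pow_orderOf_eq_one, MulAut.one_apply] at this
    exact (mul_eq_left.mp this.symm)
  have h3 : orderOf n ∣ Nat.gcd (orderOf α) m :=
    Nat.dvd_gcd (orderOf_dvd_of_pow_eq_one h2) (orderOf_dvd_of_pow_eq_one hm)
  rw [hco.gcd_eq_one, Nat.dvd_one, orderOf_eq_one_iff] at h3
  rw [hax, h3, mul_one]

/-- invariance under a group of automorphisms -/
def Inv (G : Subgroup (MulAut P)) (K : Subgroup P) : Prop := ∀ α ∈ G, ∀ x ∈ K, α x ∈ K

theorem Inv.normal {G : Subgroup (MulAut P)} (hG : (MulAut.conj : P →* MulAut P).range ≤ G)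
    {K : Subgroup P} (h : Inv G K) : K.Normal :=
  ⟨fun x hx g => h (MulAut.conj g) (hG ⟨g, rfl⟩) x hx⟩

theorem Inv.map_eq {G : Subgroup (MulAut P)} {K : Subgroup P} (h : Inv G K) {α : MulAut P}
    (hα : α ∈ G) : K.map α.toMonoidHom = K := by
  apply le_antisymm
  · rintro _ ⟨x, hx, rfl⟩
    exact h α hα x hx
  · intro x hx
    refine ⟨α⁻¹ x, h α⁻¹ (G.inv_mem hα) x hx, ?_⟩
    simp

theorem Inv.inf {G : Subgroup (MulAut P)} {K L : Subgroup P} (h : Inv G K) (h' : Inv G L) :
    Inv G (K ⊓ L) := fun α hα x hx => ⟨h α hα x hx.1, h' α hα x hx.2⟩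

theorem Inv.centralizer {G : Subgroup (MulAut P)} {K : Subgroup P} (h : Inv G K) :
    Inv G (Subgroup.centralizer (K : Set P)) := by
  intro α hα x hx
  rw [Subgroup.mem_centralizer_iff] at hx ⊢
  intro k hk
  have h1 := hx (α⁻¹ k) (h α⁻¹ (G.inv_mem hα) k hk)
  have h2 := congrArg α h1
  simpa using h2


/-- `Ω₁(Z(X))` as the set of central elements of order dividing `p` -/
def omegaCenter (p : ℕ) (X : Type*) [Group X] : Subgroup X where
  carrier := {z | z ∈ Subgroup.center X ∧ z ^ p = 1}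
  one_mem' := ⟨one_mem _, one_pow _⟩
  mul_mem' := fun {a b} ha hb => ⟨mul_mem ha.1 hb.1, by
    have : Commute a b := (Subgroup.mem_center_iff.1 ha.1 b).symm
    rw [this.mul_pow, ha.2, hb.2, one_mul]⟩
  inv_mem' := fun {a} ha => ⟨inv_mem ha.1, by rw [inv_pow, ha.2, inv_one]⟩

theorem mem_comap_omegaCenter {p : ℕ} {M : Subgroup P} [M.Normal] {x : P} :
    x ∈ (omegaCenter p (P ⧸ M)).comap (QuotientGroup.mk' M) ↔ (∀ y, ⁅x, y⁆ ∈ M) ∧ x ^ p ∈ M := by
  constructor
  · rintro ⟨h1, h2⟩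
    refine ⟨fun y => ?_, ?_⟩
    · rw [← QuotientGroup.eq_one_iff]
      have : ((⁅x, y⁆ : P) : P ⧸ M) = ⁅(x : P ⧸ M), (y : P ⧸ M)⁆ := rfl
      rw [this, commutatorElement_eq_one_iff_mul_comm]
      exact (Subgroup.mem_center_iff.1 h1 _).symm
    · rw [← QuotientGroup.eq_one_iff]
      exact h2
  · rintro ⟨h1, h2⟩
    refine ⟨?_, ?_⟩
    · rw [Subgroup.mem_center_iff]
      intro z
      obtain ⟨y, rfl⟩ := QuotientGroup.mk_surjective z
      have h3 := (QuotientGroup.eq_one_iff _).2 (h1 y)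
      have : ((⁅x, y⁆ : P) : P ⧸ M) = ⁅(x : P ⧸ M), (y : P ⧸ M)⁆ := rfl
      rw [this, commutatorElement_eq_one_iff_mul_comm] at h3
      exact h3.symm
    · exact (QuotientGroup.eq_one_iff _).2 h2

variable [Finite P] {p : ℕ} [Fact p.Prime]

theorem exists_omega_center (hP : IsPGroup p P) {M K : Subgroup P} [M.Normal] [K.Normal]
    (hMK : M < K) : ∃ x ∈ K, x ∉ M ∧ (∀ y, ⁅x, y⁆ ∈ M) ∧ x ^ p ∈ M := by
  have hne : K.map (QuotientGroup.mk' M) ≠ ⊥ := by
    intro h
    rw [Subgroup.map_eq_bot_iff, QuotientGroup.ker_mk'] at h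
    exact absurd h (not_le_of_gt hMK)
  have : (K.map (QuotientGroup.mk' M)).Normal :=
    Subgroup.Normal.map inferInstance _ (QuotientGroup.mk'_surjective M)
  obtain ⟨z, hzK, hzZ, hz1, hzp⟩ := Helper3PGroup.exists_central_order_p (hP.to_quotient M) _ hne
  obtain ⟨x, hxK, rfl⟩ := hzK
  have hx : x ∈ (omegaCenter p (P ⧸ M)).comap (QuotientGroup.mk' M) := ⟨hzZ, hzp⟩
  rw [mem_comap_omegaCenter] at hx
  exact ⟨x, hxK, fun hxM => hz1 ((QuotientGroup.eq_one_iff x).2 hxM), hx.1, hx.2⟩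

/-- a critical subgroup relative to a group `G ≥ Inn P` of automorphisms, inside a `G`-invariant `Q` -/
theorem exists_critical (hP : IsPGroup p P) {G : Subgroup (MulAut P)}
    (hG : (MulAut.conj : P →* MulAut P).range ≤ G) {Q : Subgroup P} (hQ : Inv G Q) :
    ∃ C M : Subgroup P, Inv G C ∧ Inv G M ∧ C ≤ Q ∧ M ≤ C ∧ (∀ x ∈ C, ∀ m ∈ M, x * m = m * x) ∧
      (∀ x ∈ C, ∀ y, ⁅x, y⁆ ∈ M) ∧ (∀ x ∈ C, x ^ p ∈ M) ∧
      (∀ x ∈ Q, (∀ c ∈ C, x * c = c * x) → x ∈ M) := by
  classical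
  let S : Set (Subgroup P) := {K | K ≤ Q ∧ Inv G K ∧ ∀ x ∈ K, ∀ y ∈ K, x * y = y * x}
  have hSne : S.Nonempty := ⟨⊥, bot_le, fun α _ x hx => by
    rw [Subgroup.mem_bot] at hx ⊢; rw [hx, map_one], fun x hx y hy => by
    rw [Subgroup.mem_bot] at hx hy; rw [hx, hy]⟩
  obtain ⟨M, hM⟩ := (Set.toFinite S).exists_maximal hSne
  obtain ⟨⟨hMQ, hMinv, hMab⟩, hMmax⟩ := hM
  have hMn : M.Normal := hMinv.normal hG
  set H : Subgroup P := Q ⊓ Subgroup.centralizer (M : Set P) with hH
  have hHinv : Inv G H := hQ.inf hMinv.centralizer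
  set C : Subgroup P := H ⊓ (omegaCenter p (P ⧸ M)).comap (QuotientGroup.mk' M) with hC
  have memC : ∀ x, x ∈ C ↔ x ∈ H ∧ (∀ y, ⁅x, y⁆ ∈ M) ∧ x ^ p ∈ M := by
    intro x
    rw [hC, Subgroup.mem_inf, mem_comap_omegaCenter]
  have hCinv : Inv G C := by
    intro α hα x hx
    rw [memC] at hx ⊢
    refine ⟨hHinv α hα x hx.1, fun y => ?_, ?_⟩
    · have h1 := hMinv α hα _ (hx.2.1 (α⁻¹ y))
      rw [map_commutatorElement] at h1
      simpa using h1
    · rw [← map_pow]
      exact hMinv α hα _ hx.2.2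
  have hMC : M ≤ C := by
    intro m hm
    rw [memC]
    refine ⟨Subgroup.mem_inf.2 ⟨hMQ hm, ?_⟩, fun y => ?_, M.pow_mem hm p⟩
    · rw [Subgroup.mem_centralizer_iff]
      intro k hk
      exact hMab k hk m hm
    · rw [commutatorElement_def]
      have := hMn.conj_mem m⁻¹ (M.inv_mem hm) y
      have h2 := M.mul_mem hm this
      convert h2 using 1
      group
  have hCM : ∀ x ∈ C, ∀ m ∈ M, x * m = m * x := by
    intro x hx m hm
    have := (Subgroup.mem_inf.1 ((memC x).1 hx).1).2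
    rw [Subgroup.mem_centralizer_iff] at this
    exact (this m hm).symm
  have hZ : C ⊓ Subgroup.centralizer (C : Set P) ≤ M := by
    apply hMmax
    · refine ⟨inf_le_left.trans (inf_le_left.trans inf_le_left), hCinv.inf hCinv.centralizer, ?_⟩
      intro x hx y hy
      have := (Subgroup.mem_inf.1 hy).2
      rw [Subgroup.mem_centralizer_iff] at this
      exact this x hx.1
    · intro m hm
      refine Subgroup.mem_inf.2 ⟨hMC hm, ?_⟩
      rw [Subgroup.mem_centralizer_iff]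
      intro c hc
      exact hCM c hc m hm
  refine ⟨C, M, hCinv, hMinv, inf_le_left.trans inf_le_left, hMC, hCM,
    fun x hx => ((memC x).1 hx).2.1, fun x hx => ((memC x).1 hx).2.2, ?_⟩
  intro x hxQ hxC
  by_contra hxM
  set K : Subgroup P := Q ⊓ Subgroup.centralizer (C : Set P) with hK
  have hKinv : Inv G K := hQ.inf hCinv.centralizer
  have : K.Normal := hKinv.normal hG
  have hMK : M ≤ K := by
    intro m hm
    refine Subgroup.mem_inf.2 ⟨hMQ hm, ?_⟩
    rw [Subgroup.mem_centralizer_iff]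
    intro c hc
    exact hCM c hc m hm
  have hxK : x ∈ K := by
    refine Subgroup.mem_inf.2 ⟨hxQ, ?_⟩
    rw [Subgroup.mem_centralizer_iff]
    intro c hc
    exact (hxC c hc).symm
  have hlt : M < K := lt_of_le_of_ne hMK (fun h => hxM (h ▸ hxK))
  obtain ⟨w, hwK, hwM, hw1, hw2⟩ := exists_omega_center hP hlt
  apply hwM
  apply hZ
  have hwK' := Subgroup.mem_inf.1 hwK
  refine Subgroup.mem_inf.2 ⟨(memC w).2 ⟨Subgroup.mem_inf.2 ⟨hwK'.1, ?_⟩, hw1, hw2⟩, hwK'.2⟩
  exact Subgroup.centralizer_le (by exact_mod_cast hMC) hwK'.2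


/-- the exponent: `4` for `p = 2`, `p` otherwise -/
def ex (p : ℕ) : ℕ := if p = 2 then 4 else p

omit [Finite P] in
theorem pow_choose_ex {c : P} (hc : c ^ p = 1) : c ^ ((ex p).choose 2) = 1 := by
  by_cases h : p = 2
  · subst h
    have : (ex 2).choose 2 = 2 * 3 := by simp [ex]; rfl
    rw [this, pow_mul, hc, one_pow]
  · have hp : p.Prime := Fact.out
    have h2 : 2 < p := lt_of_le_of_ne hp.two_le (Ne.symm h)
    have : ex p = p := by simp [ex, h]
    rw [this]
    obtain ⟨k, hk⟩ := hp.dvd_choose_self (by norm_num) h2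
    rw [hk, pow_mul, hc, one_pow]

omit [Finite P] [Fact p.Prime] in
theorem pow_ex_mem {M : Subgroup P} {x : P} (hx : x ^ p ∈ M) : x ^ ex p ∈ M := by
  by_cases h : p = 2
  · subst h
    have : ex 2 = 2 * 2 := by simp [ex]
    rw [this, pow_mul]
    exact M.pow_mem hx 2
  · have : ex p = p := by simp [ex, h]
    rw [this]; exact hx

theorem coprime_ex {n : ℕ} (h : n.Coprime p) : n.Coprime (ex p) := by
  by_cases h2 : p = 2
  · subst h2
    have : ex 2 = 2 ^ 2 := by simp [ex]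
    rw [this]
    exact h.pow_right 2
  · have : ex p = p := by simp [ex, h2]
    rw [this]; exact h

theorem dvd_ex : p ∣ ex p := by
  by_cases h2 : p = 2
  · subst h2
    have : ex 2 = 2 * 2 := by simp [ex]
    rw [this]; exact Dvd.intro _ rfl
  · have : ex p = p := by simp [ex, h2]
    rw [this]

theorem main (hP : IsPGroup p P) {G : Subgroup (MulAut P)}
    (hG : (MulAut.conj : P →* MulAut P).range ≤ G) {Q : Subgroup P} (hQ : Inv G Q)
    (hQf : ∀ α ∈ G, (orderOf α).Coprime p → (∀ x ∈ Q, α x = x) → α = 1) :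
    ∃ D : Subgroup P, Inv G D ∧ D ≤ Q ∧ (∀ d ∈ D, d ^ ex p = 1) ∧
      ⁅D, (⊤ : Subgroup P)⁆ ≤ D ⊓ Subgroup.centralizer (D : Set P) ∧
      (∀ α ∈ G, (orderOf α).Coprime p → (∀ d ∈ D, α d = d) → α = 1) := by
  obtain ⟨C, M, hCinv, hMinv, hCQ, hMC, hCM, hCP, hCp, hcen⟩ := exists_critical hP hG hQ
  have hCn : C.Normal := hCinv.normal hG
  have hhom : ∀ x ∈ C, ∀ y ∈ C, (x * y) ^ ex p = x ^ ex p * y ^ ex p := by
    intro x hx y hy
    have hc : ⁅y, x⁆ ∈ M := hCP y hy x
    have h1 : y * x = x * y * ⁅y, x⁆ := by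
      rw [mul_assoc, hCM y hy _ hc, ← mul_assoc, hCM x hx _ hc, commutatorElement_def]
      group
    have hcx : Commute ⁅y, x⁆ x := (hCM x hx _ hc).symm
    have hcy : Commute ⁅y, x⁆ y := (hCM y hy _ hc).symm
    have h2 := pow_mul_class_two h1 hcy p
    rw [← hCM x hx _ (hCp y hy)] at h2
    have h3 : ⁅y, x⁆ ^ p = 1 := by
      have := h2.symm
      rwa [mul_eq_left] at this
    rw [mul_pow_class_two h1 hcx hcy, pow_choose_ex h3, mul_one]
  let D : Subgroup P :=
    { carrier := {x | x ∈ C ∧ x ^ ex p = 1}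
      one_mem' := ⟨C.one_mem, one_pow _⟩
      mul_mem' := fun {a b} ha hb => ⟨C.mul_mem ha.1 hb.1, by
        rw [hhom a ha.1 b hb.1, ha.2, hb.2, one_mul]⟩
      inv_mem' := fun {a} ha => ⟨C.inv_mem ha.1, by rw [inv_pow, ha.2, inv_one]⟩ }
  have memD : ∀ x, x ∈ D ↔ x ∈ C ∧ x ^ ex p = 1 := fun x => Iff.rfl
  have hDinv : Inv G D := by
    intro α hα x hx
    rw [memD] at hx ⊢
    exact ⟨hCinv α hα x hx.1, by rw [← map_pow, hx.2, map_one]⟩
  have hDn : D.Normal := hDinv.normal hG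
  refine ⟨D, hDinv, fun x hx => hCQ hx.1, fun d hd => hd.2, ?_, ?_⟩
  · rw [Subgroup.commutator_le]
    intro d hd y _
    refine Subgroup.mem_inf.2 ⟨?_, ?_⟩
    · rw [commutatorElement_def]
      have := D.mul_mem hd (hDn.conj_mem d⁻¹ (D.inv_mem hd) y)
      convert this using 1
      group
    · rw [Subgroup.mem_centralizer_iff]
      intro k hk
      exact hCM k hk.1 _ (hCP d hd.1 y)
  · intro α hα hco hfix
    have hcoe := coprime_ex hco
    -- step 1
    have s1 : ∀ k : ℕ, ∀ m ∈ M, m ^ (ex p ^ k) = 1 → α m = m := by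
      intro k
      induction k with
      | zero =>
        intro m _ h
        rw [pow_zero, pow_one] at h
        rw [h, map_one]
      | succ k ih =>
        intro m hm h
        have h1 : α (m ^ ex p) = m ^ ex p := by
          apply ih _ (M.pow_mem hm _)
          rw [← pow_mul, ← pow_succ']
          exact h
        have hαm : α m ∈ M := hMinv α hα m hm
        have hn : m⁻¹ * α m ∈ D := by
          rw [memD]
          refine ⟨hMC (M.mul_mem (M.inv_mem hm) hαm), ?_⟩
          rw [hhom _ (hMC (M.inv_mem hm)) _ (hMC hαm), ← map_pow, h1, inv_pow, inv_mul_cancel]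
        exact fix_of_chain hcoe (hfix _ hn) hn.2
    have s1' : ∀ m ∈ M, α m = m := by
      intro m hm
      obtain ⟨j, hj⟩ := hP m
      apply s1 j m hm
      obtain ⟨t, ht⟩ := pow_dvd_pow_of_dvd (dvd_ex (p := p)) j
      rw [ht, pow_mul, hj, one_pow]
    -- step 2
    have s2 : ∀ x ∈ C, α x = x := by
      intro x hx
      have hαx : α x ∈ C := hCinv α hα x hx
      have hn : x⁻¹ * α x ∈ D := by
        rw [memD]
        refine ⟨C.mul_mem (C.inv_mem hx) hαx, ?_⟩
        rw [hhom _ (C.inv_mem hx) _ hαx, ← map_pow, s1' _ (pow_ex_mem (hCp x hx)), inv_pow,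
          inv_mul_cancel]
      exact fix_of_chain hcoe (hfix _ hn) hn.2
    -- step 3
    apply hQf α hα hco
    intro x hx
    have hn : x⁻¹ * α x ∈ M := by
      apply hcen _ (Q.mul_mem (Q.inv_mem hx) (hQ α hα x hx))
      intro c hc
      have h1 := s2 _ (hCn.conj_mem c hc x)
      rw [map_mul, map_mul, s2 c hc, map_inv] at h1
      calc x⁻¹ * α x * c = x⁻¹ * (α x * c * (α x)⁻¹) * α x := by group
        _ = c * (x⁻¹ * α x) := by rw [h1]; group
    obtain ⟨j, hj⟩ := hP (x⁻¹ * α x)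
    exact fix_of_chain (hco.pow_right j) (s1' _ hn) hj

theorem max_abelian (hP : IsPGroup p P) {G : Subgroup (MulAut P)} {D A : Subgroup P}
    (hDinv : Inv G D)
    (hcomm : ⁅D, (⊤ : Subgroup P)⁆ ≤ D ⊓ Subgroup.centralizer (D : Set P))
    (hfaith : ∀ α ∈ G, (orderOf α).Coprime p → (∀ d ∈ D, α d = d) → α = 1)
    (hAD : A ≤ D) (hA : IsMulCommutative ↥A)
    (hmax : ∀ B : Subgroup P, A ≤ B → B ≤ D → IsMulCommutative ↥B → B = A) :
    A.Normal ∧ ∀ α ∈ G, (∀ a ∈ A, α a = a) → ∃ k : ℕ, orderOf α = p ^ k := by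
  have hAc : ∀ a ∈ A, ∀ b ∈ A, a * b = b * a := by
    intro a ha b hb
    have := hA.is_comm.comm (⟨a, ha⟩ : A) ⟨b, hb⟩
    exact congrArg Subtype.val this
  have hself : ∀ z ∈ D, (∀ a ∈ A, z * a = a * z) → z ∈ A := by
    intro z hz hza
    have hB : IsMulCommutative ↥(Subgroup.closure ((A : Set P) ∪ {z})) := by
      apply Subgroup.isMulCommutative_closure
      rintro x (hx | hx) y (hy | hy)
      · exact hAc x hx y hy
      · rw [Set.mem_singleton_iff] at hy; subst hy; exact (hza x hx).symm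
      · rw [Set.mem_singleton_iff] at hx; subst hx; exact hza y hy
      · rw [Set.mem_singleton_iff] at hx hy; rw [hx, hy]
    have hBD : Subgroup.closure ((A : Set P) ∪ {z}) ≤ D := by
      rw [Subgroup.closure_le]
      rintro x (hx | hx)
      · exact hAD hx
      · rw [Set.mem_singleton_iff] at hx; subst hx; exact hz
    have h1 := hmax (Subgroup.closure ((A : Set P) ∪ {z}))
      (fun a ha => Subgroup.subset_closure (Or.inl ha)) hBD hB
    rw [← h1]
    exact Subgroup.subset_closure (Or.inr rfl)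
  have hAn : A.Normal := by
    refine ⟨fun a ha g => ?_⟩
    have h1 : ⁅a, g⁆ ∈ D ⊓ Subgroup.centralizer (D : Set P) :=
      hcomm (Subgroup.commutator_mem_commutator (hAD ha) (Subgroup.mem_top g))
    obtain ⟨h2, h3⟩ := Subgroup.mem_inf.1 h1
    rw [Subgroup.mem_centralizer_iff] at h3
    have h4 : ⁅a, g⁆ ∈ A := hself _ h2 (fun b hb => (h3 b (hAD hb)).symm)
    have h5 := A.mul_mem (A.inv_mem h4) ha
    convert h5 using 1
    rw [commutatorElement_def]
    group
  refine ⟨hAn, ?_⟩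
  intro α hα hfix
  have hp : p.Prime := Fact.out
  have hfin : orderOf α ≠ 0 := (orderOf_pos α).ne'
  obtain ⟨k, m, hm, hkm⟩ := Nat.exists_eq_pow_mul_and_not_dvd hfin p hp.ne_one
  have hβo : orderOf (α ^ (p ^ k)) = m := by
    rw [orderOf_pow_of_dvd (pow_pos hp.pos k).ne' (hkm ▸ Dvd.intro _ rfl), hkm,
      Nat.mul_div_cancel_left _ (pow_pos hp.pos k)]
  have hβfix : ∀ j : ℕ, ∀ a ∈ A, (α ^ j) a = a := by
    intro j
    induction j with
    | zero => intro a _; simp
    | succ j ih => intro a ha; rw [pow_succ, MulAut.mul_apply, hfix a ha, ih a ha]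
  have hco : (orderOf (α ^ (p ^ k))).Coprime p := by
    rw [hβo]
    exact ((Nat.Prime.coprime_iff_not_dvd hp).2 hm).symm
  have hβ1 : α ^ (p ^ k) = 1 := by
    apply hfaith _ (G.pow_mem hα _) hco
    intro x hx
    set β := α ^ (p ^ k) with hβ
    have hβx : β x ∈ D := hDinv β (G.pow_mem hα _) x hx
    have hn : x⁻¹ * β x ∈ A := by
      apply hself _ (D.mul_mem (D.inv_mem hx) hβx)
      intro c hc
      have h1 := hβfix (p ^ k) _ (hAn.conj_mem c hc x)
      rw [← hβ, map_mul, map_mul, hβfix (p ^ k) c hc, map_inv] at h1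
      calc x⁻¹ * β x * c = x⁻¹ * (β x * c * (β x)⁻¹) * β x := by group
        _ = c * (x⁻¹ * β x) := by rw [h1]; group
    obtain ⟨j, hj⟩ := hP (x⁻¹ * β x)
    exact fix_of_chain (hco.pow_right j) (hβfix _ _ hn) hj
  obtain ⟨j, -, hj⟩ := (Nat.dvd_prime_pow hp).1 (orderOf_dvd_of_pow_eq_one hβ1)
  exact ⟨j, hj⟩

end Cfsg.Agent.Lib.Helper53Crit
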