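import Cfsg.Agent.Lib.Helper53Syl
import Cfsg.Agent.Lib.Helper39Transfer

set_option autoImplicit false

/-! Functor pairs `(W, V)`: the Alperin type induction through well placed subgroups containing
the centre of the Sylow subgroup. -/

namespace Cfsg.Agent.Lib.Helper53Pair

open Cfsg Cfsg.Agent.Lib.Helper39Sylow Cfsg.Agent.Lib.Helper39Fusion
  Cfsg.Agent.Lib.Helper39WellPlaced

variable {G : Type*} [Group G]

/-- Frattini argument in the normalizer of a tame subgroup. -/
theorem frattini_step [Finite G] {p : ℕ} [Fact p.Prime] {S U : Subgroup G}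
    (hsyl : IsSyl p (S ⊓ Subgroup.normalizer (U : Set G)) (Subgroup.normalizer (U : Set G)))
    {x : G} (hx : x ∈ Subgroup.normalizer (U : Set G)) :
    ∃ c ∈ Subgroup.centralizer (U : Set G), ∃ y ∈ Subgroup.normalizer (U : Set G),
      y ∈ Subgroup.normalizer ((S ⊓ Subgroup.centralizer (U : Set G) : Subgroup G) : Set G) ∧
        x = c * y := by
  have hCN : Subgroup.centralizer (U : Set G) ≤ Subgroup.normalizer (U : Set G) :=
    Cfsg.Agent.Lib.Helper53Rel.centralizer_le_normalizer' U
  have hNC : Subgroup.normalizer (U : Set G) ≤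
      Subgroup.normalizer ((Subgroup.centralizer (U : Set G) : Subgroup G) : Set G) :=
    Cfsg.Agent.Lib.Helper53Rel.le_normalizer_centralizer le_rfl
  have h1 : Cfsg.Agent.Lib.Helper53Syl.IsSyl p
      (S ⊓ Subgroup.normalizer (U : Set G) ⊓ Subgroup.centralizer (U : Set G))
      (Subgroup.centralizer (U : Set G)) :=
    Cfsg.Agent.Lib.Helper53Syl.IsSyl.inf_normal (S := S ⊓ Subgroup.normalizer (U : Set G))
      ⟨hsyl.1, hsyl.2.1, hsyl.2.2⟩ hCN hNC
  have e : S ⊓ Subgroup.normalizer (U : Set G) ⊓ Subgroup.centralizer (U : Set G) =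
      S ⊓ Subgroup.centralizer (U : Set G) := by
    rw [inf_assoc, inf_eq_right.2 hCN]
  rw [e] at h1
  obtain ⟨n, hn, m, hm, rfl⟩ := Cfsg.Agent.Lib.Helper53Syl.frattini hNC h1 hx
  refine ⟨n, hn, m, ?_, hm, rfl⟩
  have := (Subgroup.normalizer (U : Set G)).mul_mem
    ((Subgroup.normalizer (U : Set G)).inv_mem (hCN hn)) hx
  simpa using this

/-- The induction principle for functor pairs. -/
theorem pair_induction [Finite G] {p : ℕ} [Fact p.Prime] (S : Subgroup G) (hS : IsSyl p S ⊤)
    {W : Subgroup G → Subgroup G} (hW : IsConjugacyFunctor p W)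
    (R : Subgroup G → G → Prop)
    (h_trans : ∀ A g h, A ≤ S → cj g A ≤ S → cj (h * g) A ≤ S → R A g → R (cj g A) h → R A (h * g))
    (h_symm : ∀ A g, A ≤ S → cj g A ≤ S → R A g → R (cj g A) g⁻¹)
    (h_mono : ∀ A B g, A ≤ S → cj g A ≤ S → B ≤ A → R A g → R B g)
    (h_cent : ∀ A : Subgroup G, A ≤ S → ∀ c ∈ Subgroup.centralizer (A : Set G), R A c)
    (hloc : ∀ D : Subgroup G, IsWellPlaced p W S D → S ⊓ Subgroup.centralizer (S : Set G) ≤ D →
      ∀ x ∈ Subgroup.normalizer (D : Set G), R D x) :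
    ∀ A : Subgroup G, A ≤ S → ∀ g : G, cj g A ≤ S → R A g := by
  apply alperin_induction (p := p) S hS R h_trans h_symm h_mono
    {T : Subgroup G | IsWellPlaced p W S T}
  · intro T hT
    obtain ⟨g, hg⟩ := exists_wellPlaced_conj hS hW T hT
    exact ⟨_, hg, hg.1, ⟨g, rfl⟩, IsWellPlaced.isSyl hS hg⟩
  · intro U hU hUS hUsyl IH x hx
    by_cases hC : S ⊓ Subgroup.centralizer (U : Set G) ≤ U
    · apply hloc U hU _ x hx
      exact le_trans (inf_le_inf_left _ (Subgroup.centralizer_le hUS)) hC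
    · obtain ⟨c, hc, y, hyU, hyC, rfl⟩ := frattini_step hUsyl hx
      set D := U ⊔ (S ⊓ Subgroup.centralizer (U : Set G)) with hD
      have hDS : D ≤ S := sup_le hUS inf_le_left
      have hUD : U < D := by
        refine lt_of_le_of_ne le_sup_left ?_
        intro h
        exact hC ((le_sup_right : S ⊓ Subgroup.centralizer (U : Set G) ≤ D).trans (le_of_eq h.symm))
      have hyD : cj y D = D := by
        rw [hD, cj_sup, mem_normalizer_iff_cj.1 hyU, mem_normalizer_iff_cj.1 hyC]
      have h1 : R D y := IH D hDS (card_lt_of_lt hUD) y (by rw [hyD]; exact hDS)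
      have h2 : R U y := h_mono D U y hDS (by rw [hyD]; exact hDS) hUD.le h1
      have hyU' : cj y U = U := mem_normalizer_iff_cj.1 hyU
      apply h_trans U y c hUS (by rw [hyU']; exact hUS) _ h2
      · rw [hyU']; exact h_cent U hUS c hc
      · rw [cj_mul, hyU', cj_eq_of_mem_centralizer hc]; exact hUS

/-- basic facts on the next term of the tower -/
theorem next_facts [Finite G] {p : ℕ} [Fact p.Prime] {S : Subgroup G} (hS : IsSyl p S ⊤)
    {W : Subgroup G → Subgroup G} (hW : IsConjugacyFunctor p W)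
    (hWZ : ∀ H : Subgroup G, IsPGroup p ↥H → H ⊓ Subgroup.centralizer ((H : Subgroup G) : Set G) ≤ W H)
    {D : Subgroup G} (hD : IsWellPlaced p W S D) (hZ : S ⊓ Subgroup.centralizer (S : Set G) ≤ D) :
    IsWellPlaced p W S (W (S ⊓ Subgroup.normalizer (D : Set G))) ∧
      S ⊓ Subgroup.centralizer (S : Set G) ≤
        (S ⊓ Subgroup.normalizer (D : Set G)) ⊓
          Subgroup.centralizer ((S ⊓ Subgroup.normalizer (D : Set G) : Subgroup G) : Set G) ∧
      S ⊓ Subgroup.centralizer (S : Set G) ≤ W (S ⊓ Subgroup.normalizer (D : Set G)) ∧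
      S ⊓ Subgroup.normalizer (D : Set G) ≤
        S ⊓ Subgroup.normalizer ((W (S ⊓ Subgroup.normalizer (D : Set G)) : Subgroup G) : Set G) ∧
      (S ⊓ Subgroup.normalizer (D : Set G) ≠ S →
        Nat.card (S ⊓ Subgroup.normalizer (D : Set G) : Subgroup G) <
        Nat.card (S ⊓ Subgroup.normalizer
          ((W (S ⊓ Subgroup.normalizer (D : Set G)) : Subgroup G) : Set G) : Subgroup G)) := by
  set R := S ⊓ Subgroup.normalizer (D : Set G) with hR
  have hRp : IsPGroup p R := hS.2.1.to_le inf_le_left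
  have hRS : R ≤ S := inf_le_left
  have hZR : S ⊓ Subgroup.centralizer (S : Set G) ≤ R ⊓ Subgroup.centralizer (R : Set G) :=
    le_inf (le_inf inf_le_left (hZ.trans Subgroup.le_normalizer))
      (inf_le_right.trans (Subgroup.centralizer_le hRS))
  have hle2 : S ⊓ Subgroup.normalizer (R : Set G) ≤
      S ⊓ Subgroup.normalizer ((W R : Subgroup G) : Set G) :=
    inf_le_inf_left _ (normalizer_le_normalizer_W hW hRp)
  refine ⟨IsWellPlaced.next hS hW hD, hZR, hZR.trans (hWZ R hRp),
    (le_inf hRS Subgroup.le_normalizer).trans hle2, fun hne => ?_⟩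
  have hgrow : R < S ⊓ Subgroup.normalizer (R : Set G) :=
    lt_inf_normalizer hS.2.1 (lt_of_le_of_ne hRS hne)
  exact lt_of_lt_of_le (card_lt_of_lt hgrow) (Subgroup.card_le_of_le hle2)

end Cfsg.Agent.Lib.Helper53Pair
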