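import Mathlib
import Cfsg.Agent.Lib.Helper20SNDefs

/-!
Project 73 (S4073), piece `free`: orbit counting for a free conjugation action.
-/

set_option autoImplicit false

namespace Cfsg.Agent.Lib.Helper53SNFree

open Cfsg.Agent.Lib.Helper20SNDefs

/-- piece `free` -/
theorem free_dvd {G : Type*} [Group G] [Finite G] (T N : Subgroup G) (hTN : T ≤ N) (hab : Ab T)
    (hn : ∀ g ∈ N, ∀ u ∈ T, g * u * g⁻¹ ∈ T)
    (hfree : ∀ g ∈ N, g ∉ T → ∀ u ∈ T, g * u = u * g → u = 1) :
    ∃ e : ℕ, Nat.card N = e * Nat.card T ∧ e ∣ Nat.card T - 1 := by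
  classical
  let X := {u : G // u ∈ T ∧ u ≠ 1}
  let act : MulAction N X :=
    { smul := fun g u => ⟨(g : G) * u * (g : G)⁻¹, hn g g.2 u u.2.1,
        fun h => u.2.2 (by simpa using h)⟩
      one_smul := fun u => Subtype.ext (by
        change ((1 : N) : G) * u * ((1 : N) : G)⁻¹ = u
        simp)
      mul_smul := fun g h u => Subtype.ext (by
        change ((g * h : N) : G) * u * ((g * h : N) : G)⁻¹ = (g : G) * ((h : G) * u * (h : G)⁻¹) * (g : G)⁻¹
        simp [mul_assoc]) }
  have hsmul : ∀ (g : N) (u : X), ((g • u : X) : G) = (g : G) * u * (g : G)⁻¹ := fun _ _ => rfl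
  have hstab : ∀ u : X, MulAction.stabilizer N u = T.subgroupOf N := by
    intro u
    ext g
    rw [MulAction.mem_stabilizer_iff, Subgroup.mem_subgroupOf]
    constructor
    · intro h
      by_contra hg
      have h1 : (g : G) * u * (g : G)⁻¹ = u := by rw [← hsmul, h]
      exact u.2.2 (hfree g g.2 hg u u.2.1 (by
        calc (g : G) * u = ((g : G) * u * (g : G)⁻¹) * g := by group
          _ = u * g := by rw [h1]))
    · intro h
      apply Subtype.ext
      rw [hsmul, hab g h u u.2.1]
      group
  refine ⟨T.relIndex N, ?_, ?_⟩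
  · have h0 := (T.subgroupOf N).card_mul_index
    rw [Nat.card_congr (Subgroup.subgroupOfEquivOfLe hTN).toEquiv] at h0
    rw [← h0, mul_comm]
    rfl
  · have e1 := MulAction.selfEquivSigmaOrbitsQuotientStabilizer N X
    have h1 : Nat.card X = Nat.card (MulAction.orbitRel.Quotient N X) * T.relIndex N := by
      have := Fintype.ofFinite (MulAction.orbitRel.Quotient N X)
      rw [Nat.card_congr e1, Nat.card_sigma]
      have : ∀ ω : MulAction.orbitRel.Quotient N X,
          Nat.card (N ⧸ MulAction.stabilizer N ω.out) = T.relIndex N := by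
        intro ω
        rw [hstab]
        rfl
      simp only [this]
      simp [Nat.card_eq_fintype_card]
    have h2 : Nat.card X = Nat.card T - 1 := by
      have e2 : X ≃ {u : T // u ≠ 1} :=
        { toFun := fun u => ⟨⟨u.1, u.2.1⟩, fun h => u.2.2 (congrArg Subtype.val h)⟩
          invFun := fun u => ⟨u.1.1, u.1.2, fun h => u.2 (Subtype.ext h)⟩
          left_inv := fun _ => rfl
          right_inv := fun _ => rfl }
      rw [Nat.card_congr e2]
      have := Fintype.ofFinite T
      rw [Nat.card_eq_fintype_card, Nat.card_eq_fintype_card, Fintype.card_subtype_compl]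
      simp
    rw [← h2, h1]
    exact Dvd.intro_left _ rfl

end Cfsg.Agent.Lib.Helper53SNFree
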