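import Mathlib
import Cfsg.Agent.Lib.Helper20SNDefs
import Cfsg.Agent.Lib.Helper53SNFree
import Cfsg.Agent.Lib.Helper53Syl

/-!
Project 73 (S4073), piece `pnon`: in a `CA`-group whose involution centralizers have order `2 ^ n`
with `2 ^ n - 1` prime, every non-solvable subgroup is self-normalizing.
The piece `odd` (groups of odd order in a `CA`-group are solvable) is an extra hypothesis at the end.
-/

set_option autoImplicit false

namespace Cfsg.Agent.Lib.Helper53SNPnon

open Cfsg.Agent.Lib.Helper20SNDefs Cfsg.Agent.Lib.Helper53Syl Cfsg.Agent.Lib.Helper53Rel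
open Cfsg.Agent.Lib.Helper53SNFree Subgroup

/-- Burnside's transfer theorem: if `N(P) ≤ C(P)` for a Sylow 2-subgroup and the subgroups of odd
order are solvable, then the group is solvable. -/
theorem solvable_of_burnside {H : Type*} [Group H] [Finite H]
    (hodd : ∀ K : Subgroup H, Odd (Nat.card K) → Group.IsSolvable K) (P : Sylow 2 H)
    (hP : normalizer (P : Set H) ≤ centralizer (P : Set H)) : Group.IsSolvable H := by
  have : Fact (Nat.Prime 2) := ⟨Nat.prime_two⟩
  have h2 : Odd (Nat.card (MonoidHom.transferSylow P hP).ker) := by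
    rw [← Nat.not_even_iff_odd, even_iff_two_dvd]
    exact MonoidHom.not_dvd_card_ker_transferSylow P hP
  have := hodd _ h2
  have : IsMulCommutative P := ⟨⟨fun a b => Subtype.ext (hP (le_normalizer b.2) a a.2)⟩⟩
  have : Group.IsSolvable P := by
    let : CommGroup P := { (inferInstance : Group P) with mul_comm := fun a b => mul_comm' a b }
    infer_instance
  exact Group.isSolvable_of_ker_le_range (MonoidHom.transferSylow P hP).ker.subtype
    (MonoidHom.transferSylow P hP) (by simp)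

/-- piece `pnon` -/
theorem pp_nonsolv {G : Type*} [Group G] [Finite G] (hCA : CA G) (n : ℕ) (hn : (2 ^ n - 1).Prime)
    (hinv : ∀ t : G, orderOf t = 2 → Nat.card (Subgroup.centralizer ({t} : Set G)) = 2 ^ n)
    (H : Subgroup G) (hs : ¬ Group.IsSolvable H)
    (hodd : ∀ K : Subgroup G, Odd (Nat.card K) → Group.IsSolvable K) :
    Subgroup.normalizer (H : Set G) ≤ H := by
  classical
  have : Fact (Nat.Prime 2) := ⟨Nat.prime_two⟩
  have hoddH : ∀ K : Subgroup H, Odd (Nat.card K) → Group.IsSolvable K := by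
    intro K hK
    have e : K ≃* K.map H.subtype := K.equivMapOfInjective _ H.subtype_injective
    have := hodd (K.map H.subtype) (by rwa [← Nat.card_congr e.toEquiv])
    exact Group.isSolvable_of_isSolvable_injective (f := e.toMonoidHom) e.injective
  obtain ⟨P⟩ : Nonempty (Sylow 2 H) := inferInstance
  have hB : ¬ normalizer (P : Set H) ≤ centralizer (P : Set H) :=
    fun h => hs (solvable_of_burnside hoddH P h)
  set T0 : Subgroup G := (P : Subgroup H).map H.subtype with hT0
  have hsyl : IsSyl 2 T0 H := isSyl_of_sylow P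
  obtain ⟨d, hdN, hdC⟩ := SetLike.not_le_iff_exists.1 hB
  have hmemT0 : ∀ u : H, u ∈ (P : Subgroup H) → (u : G) ∈ T0 := fun u hu => ⟨u, hu, rfl⟩
  -- an element of `T0` not centralized by `d`
  obtain ⟨u0, hu0P, hu0d⟩ : ∃ u : H, u ∈ (P : Subgroup H) ∧ u * d ≠ d * u := by
    by_contra hcon
    push Not at hcon
    exact hdC (Subgroup.mem_centralizer_iff.2 fun u hu => hcon u hu)
  have hu0ne : (u0 : G) ≠ 1 := by
    intro h
    have : u0 = 1 := Subtype.ext h
    exact hu0d (by rw [this]; simp)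
  have hT0ne : T0 ≠ ⊥ := by
    intro h
    have := hmemT0 u0 hu0P
    rw [h, Subgroup.mem_bot] at this
    exact hu0ne this
  -- `T0` is abelian
  have hT0ab : Ab T0 := by
    have : Nontrivial T0 := (Subgroup.nontrivial_iff_ne_bot T0).2 hT0ne
    have := hsyl.isPGroup.center_nontrivial
    obtain ⟨z, hz⟩ := exists_ne (1 : Subgroup.center T0)
    have hz1 : ((z : T0) : G) ≠ 1 := fun h => hz (Subtype.ext (Subtype.ext h))
    intro a ha b hb
    have h1 := Subgroup.mem_center_iff.1 z.2 ⟨a, ha⟩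
    have h2 := Subgroup.mem_center_iff.1 z.2 ⟨b, hb⟩
    exact hCA _ hz1 a b (congrArg Subtype.val h1) (congrArg Subtype.val h2)
  obtain ⟨k, hk⟩ := IsPGroup.iff_card.1 hsyl.isPGroup
  have hk0 : k ≠ 0 := by
    rintro rfl
    rw [pow_zero, Subgroup.card_eq_one] at hk
    exact hT0ne hk
  -- an involution
  obtain ⟨t, htT0, ht2⟩ : ∃ t ∈ T0, orderOf t = 2 := by
    obtain ⟨x, hx⟩ := exists_prime_orderOf_dvd_card' (G := T0) 2 (by rw [hk]; exact dvd_pow_self 2 hk0)
    exact ⟨x, x.2, by rw [← hx, Subgroup.orderOf_coe]⟩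
  have ht1 : t ≠ 1 := by
    rintro rfl
    simp at ht2
  set T : Subgroup G := Subgroup.centralizer ({t} : Set G) with hT
  have hTcard : Nat.card T = 2 ^ n := hinv t ht2
  have hTab : Ab T := hCA.ab_centralizer ht1
  have hmemT : ∀ g : G, g ∈ T ↔ g * t = t * g := fun g => Subgroup.mem_centralizer_singleton_iff
  have hT0T : T0 ≤ T := fun x hx => (hmemT x).2 (hT0ab x hx t htT0)
  have hTp : IsPGroup 2 T := IsPGroup.of_card hTcard
  -- an element commuting with a non-identity element of `T` lies in `T`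
  have hkey : ∀ g u : G, u ∈ T → u ≠ 1 → g * u = u * g → g ∈ T := by
    intro g u hu hu1 hgu
    exact (hmemT g).2 (hCA.trans hu1 hgu (((hmemT u).1 hu).symm))
  set D : Subgroup G := H ⊓ normalizer (T0 : Set G) with hD
  have hT0D : T0 ≤ D := le_inf hsyl.le le_normalizer
  have hDconj : ∀ g ∈ D, ∀ u ∈ T0, g * u * g⁻¹ ∈ T0 :=
    fun g hg u hu => (Subgroup.mem_normalizer_iff.1 hg.2 u).1 hu
  have hdD : (d : G) ∈ D := by
    refine ⟨d.2, mem_normalizer_of_conj ?_⟩
    rintro _ ⟨u, hu, rfl⟩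
    exact ⟨d * u * d⁻¹, (Subgroup.mem_normalizer_iff.1 hdN u).1 hu, by simp⟩
  have hdT0 : (d : G) ∉ T0 := by
    intro h
    exact hu0d (Subtype.ext (hT0ab u0 (hmemT0 u0 hu0P) d h))
  have hDN : D ≤ normalizer (T : Set G) := by
    intro g hg
    apply mem_normalizer_of_conj
    intro x hx
    have h1 : g * t * g⁻¹ ∈ T0 := hDconj g hg t htT0
    have h2 : g * t * g⁻¹ ≠ 1 := fun h => ht1 (by simpa using h)
    refine hkey _ _ (hT0T h1) h2 ?_
    have h3 := (hmemT x).1 hx
    calc g * x * g⁻¹ * (g * t * g⁻¹) = g * (x * t) * g⁻¹ := by group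
      _ = g * (t * x) * g⁻¹ := by rw [h3]
      _ = g * t * g⁻¹ * (g * x * g⁻¹) := by group
  have hDT : D ⊓ T = T0 :=
    hsyl.eq_of_le hTp.to_inf_right (inf_le_left.trans inf_le_left) (le_inf hT0D hT0T)
  obtain ⟨e, he1, he2⟩ := free_dvd T (normalizer (T : Set G)) le_normalizer hTab
    (fun g hg u hu => (Subgroup.mem_normalizer_iff.1 hg u).1 hu)
    (fun g _ hgT u hu hgu => by
      by_contra hu1
      exact hgT (hkey g u hu hu1 hgu))
  obtain ⟨e0, h01, h02⟩ := free_dvd T0 D hT0D hT0ab hDconj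
    (fun g hg hgT u hu hgu => by
      by_contra hu1
      apply hgT
      rw [← hDT]
      exact ⟨hg, hkey g u (hT0T hu) hu1 hgu⟩)
  rw [hTcard] at he1 he2
  rw [hk] at h01 h02
  have he01 : e0 ≠ 1 := by
    rintro rfl
    rw [one_mul, ← hk] at h01
    have : T0 = D := Subgroup.eq_of_le_of_card_ge hT0D h01.le
    exact hdT0 (this ▸ hdD)
  have hdvd : e0 * 2 ^ k ∣ e * 2 ^ n := by
    rw [← h01, ← he1]
    exact Subgroup.card_dvd_of_le hDN
  have hkpos : 0 < 2 ^ k - 1 := by
    have : 2 ^ 1 ≤ 2 ^ k := Nat.pow_le_pow_right (by norm_num) (Nat.one_le_iff_ne_zero.2 hk0)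
    omega
  have hcop : Nat.Coprime e0 (2 ^ n) := by
    apply Nat.Coprime.pow_right
    rw [Nat.coprime_comm, Nat.Prime.coprime_iff_not_dvd Nat.prime_two]
    intro h2
    have h3 : 2 ∣ 2 ^ k - 1 := h2.trans h02
    have h4 : 2 ∣ 2 ^ k := dvd_pow_self 2 hk0
    omega
  have he0e : e0 ∣ e := hcop.dvd_of_dvd_mul_right ((Dvd.intro _ rfl).trans hdvd)
  have he0 : e0 = 2 ^ n - 1 := ((Nat.dvd_prime hn).1 (he0e.trans he2)).resolve_left he01
  have hee : e = e0 := by
    rw [he0] at he0e ⊢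
    exact Nat.dvd_antisymm he2 he0e
  have hle : 2 ^ n - 1 ≤ 2 ^ k - 1 := he0 ▸ Nat.le_of_dvd hkpos h02
  have hTT0 : T0 = T := by
    apply Subgroup.eq_of_le_of_card_ge hT0T
    rw [hTcard, hk]
    omega
  have hkn : 2 ^ k = 2 ^ n := by rw [← hk, ← hTcard, hTT0]
  have hDeq : D = normalizer (T : Set G) := by
    apply Subgroup.eq_of_le_of_card_ge hDN
    rw [he1, h01, hee, hkn]
  intro g hg
  obtain ⟨h, hh, m, hm, rfl⟩ := frattini (L := normalizer (H : Set G)) le_rfl hsyl hg
  rw [hTT0, ← hDeq] at hm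
  exact H.mul_mem hh hm.1

end Cfsg.Agent.Lib.Helper53SNPnon
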