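import Mathlib
import Cfsg.Agent.Lib.Helper20SNDefs
import Cfsg.Agent.Lib.Helper53Rel

/-!
Project 73 (S4073), piece `psol`: in a `CA`-group with `KK`, every solvable non-abelian subgroup is
self-normalizing.  The conclusion of piece `abn` (for `H` and `L = N(H)`) is an extra hypothesis at
the end.
-/

set_option autoImplicit false

namespace Cfsg.Agent.Lib.Helper53SNPsol

open Cfsg.Agent.Lib.Helper20SNDefs Cfsg.Agent.Lib.Helper53Rel Subgroup

/-- piece `psol` -/
theorem pp_solv {G : Type*} [Group G] [Finite G] (hCA : CA G) (hKK : KK G) (H : Subgroup G)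
    (_hs : Group.IsSolvable H) (hna : ¬ Ab H)
    (habn : ∃ F0 : Subgroup G, F0 ≤ H ∧ F0 ≠ ⊥ ∧ Ab F0 ∧
      ∀ l ∈ Subgroup.normalizer (H : Set G), ∀ f ∈ F0, l * f * l⁻¹ ∈ F0) :
    Subgroup.normalizer (H : Set G) ≤ H := by
  classical
  obtain ⟨F0, hF0H, hF0ne, hF0ab, hF0n⟩ := habn
  obtain ⟨f, hfF, hf1⟩ := F0.bot_or_exists_ne_one.resolve_left hF0ne
  set L : Subgroup G := Subgroup.normalizer (H : Set G) with hL
  set C : Subgroup G := Subgroup.centralizer ({f} : Set G) with hC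
  have hmemC : ∀ g : G, g ∈ C ↔ g * f = f * g := fun g => Subgroup.mem_centralizer_singleton_iff
  have hCab : Ab C := hCA.ab_centralizer hf1
  have hHL : H ≤ L := le_normalizer
  have hkey : ∀ g u : G, u ∈ C → u ≠ 1 → g * u = u * g → g ∈ C := by
    intro g u hu hu1 hgu
    exact (hmemC g).2 (hCA.trans hu1 hgu (((hmemC u).1 hu).symm))
  have hLN : L ≤ normalizer (C : Set G) := by
    intro l hl
    apply mem_normalizer_of_conj
    intro x hx
    have h1 : l * f * l⁻¹ ∈ F0 := hF0n l hl f hfF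
    have h2 : l * f * l⁻¹ ≠ 1 := fun h => hf1 (by simpa using h)
    refine hkey _ _ ((hmemC _).2 (hF0ab _ h1 f hfF)) h2 ?_
    have h3 := (hmemC x).1 hx
    calc l * x * l⁻¹ * (l * f * l⁻¹) = l * (x * f) * l⁻¹ := by group
      _ = l * (f * x) * l⁻¹ := by rw [h3]
      _ = l * f * l⁻¹ * (l * x * l⁻¹) := by group
  have hHC : ¬ H ≤ C := fun h => hna (hCab.mono h)
  obtain ⟨h0, hh0H, hh0C⟩ := SetLike.not_le_iff_exists.1 hHC
  have hHN : H ≤ normalizer (C : Set G) := hHL.trans hLN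
  have hU : H ⊔ C = normalizer (C : Set G) := by
    rcases hKK f hf1 (H ⊔ C) le_sup_right (sup_le hHN le_normalizer) with h | h
    · exact absurd (le_sup_left.trans h.le) hHC
    · exact h
  set D : Subgroup G := L ⊓ C with hD
  have hDH : D ≤ H := by
    have hle : H ⊓ C ≤ D := inf_le_inf_right C hHL
    have hψ : ∀ d : D, (d : G)⁻¹ * h0 * d * h0⁻¹ ∈ H ⊓ C := by
      intro d
      constructor
      · have h1 : (d : G)⁻¹ * h0 * (d : G)⁻¹⁻¹ ∈ H :=
          (Subgroup.mem_normalizer_iff.1 (L.inv_mem d.2.1) h0).1 hh0H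
        rw [inv_inv] at h1
        exact H.mul_mem h1 (H.inv_mem hh0H)
      · have h1 : h0 * (d : G) * h0⁻¹ ∈ C :=
          (Subgroup.mem_normalizer_iff.1 (hHN hh0H) d).1 d.2.2
        have h2 := C.mul_mem (C.inv_mem d.2.2) h1
        have h3 : (d : G)⁻¹ * (h0 * (d : G) * h0⁻¹) = (d : G)⁻¹ * h0 * d * h0⁻¹ := by group
        rwa [h3] at h2
    let ψ : D → (H ⊓ C : Subgroup G) := fun d => ⟨_, hψ d⟩
    have hinj : Function.Injective ψ := by
      intro d d' hdd
      have h1 : (d : G)⁻¹ * h0 * d * h0⁻¹ = (d' : G)⁻¹ * h0 * d' * h0⁻¹ := congrArg Subtype.val hdd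
      have h2 : (d : G)⁻¹ * h0 * d = (d' : G)⁻¹ * h0 * d' := mul_right_cancel h1
      by_contra hne
      have hw : (d : G) * (d' : G)⁻¹ ∈ C := C.mul_mem d.2.2 (C.inv_mem d'.2.2)
      have hw1 : (d : G) * (d' : G)⁻¹ ≠ 1 := by
        intro h
        exact hne (Subtype.ext (mul_inv_eq_one.1 h))
      apply hh0C
      refine hkey _ _ hw hw1 ?_
      calc h0 * ((d : G) * (d' : G)⁻¹) = d * ((d : G)⁻¹ * h0 * d) * (d' : G)⁻¹ := by group
        _ = d * ((d' : G)⁻¹ * h0 * d') * (d' : G)⁻¹ := by rw [h2]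
        _ = (d : G) * (d' : G)⁻¹ * h0 := by group
    have hcard : Nat.card D ≤ Nat.card (H ⊓ C : Subgroup G) := Nat.card_le_card_of_injective ψ hinj
    have := Subgroup.eq_of_le_of_card_ge hle hcard
    rw [← this]
    exact inf_le_left
  intro l hl
  have h1 : l ∈ H ⊔ C := hU ▸ hLN hl
  obtain ⟨h, hh, c, hc, rfl⟩ := (mem_sup_of_le_normalizer hHN).1 h1
  have hcL : c ∈ L := by
    have := L.mul_mem (L.inv_mem (hHL hh)) hl
    simpa using this
  exact H.mul_mem hh (hDH ⟨hcL, hc⟩)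

end Cfsg.Agent.Lib.Helper53SNPsol
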