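import Cfsg.Agent.Lib.Helper54CNFpf

set_option autoImplicit false
open Cfsg
open Cfsg.Agent.Lib.Helper31Nilpotent Cfsg.Agent.Lib.Helper54CNFpf
open scoped Pointwise

namespace Cfsg.Agent.Lib.Helper54CNCase1

set_option linter.unusedSectionVars false

variable {G : Type*} [Group G] [Finite G]

theorem complement_structure (hCN : Cfsg.IsCNGroup G) (K E : Subgroup G) [K.Normal] (hK : K ≠ ⊥)
    (hfpf : FpfOn K E) :
    IsCyclic E ∨ ∃ C Q : Subgroup G, C ⊔ Q = E ∧ (∀ a ∈ C, ∀ b ∈ Q, a * b = b * a) ∧ IsCyclic C ∧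
      Odd (Nat.card C) ∧ ∃ n : ℕ, Nonempty (↥Q ≃* QuaternionGroup (2 ^ n)) := by
  have hEn : Group.IsNilpotent E := nilp_of_fpf hCN K E hK hfpf
  have : Fact (Nat.Prime 2) := ⟨Nat.prime_two⟩
  by_cases h2 : ∀ S : Sylow 2 E, IsCyclic S
  · left
    apply cyclic_of_comm K E hK hfpf
    intro x hx y hy
    refine central_of_cyclic_sylow E hEn hx ?_ hy
    intro r hr _ S
    by_cases hr2 : r = 2
    · subst hr2
      exact h2 S
    · exact sylow_cyclic_of_ne_two K E hK hfpf r hr2 S
  · right
    push Not at h2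
    obtain ⟨S, hS⟩ := h2
    obtain ⟨n, hn⟩ : ∃ n : ℕ, Nonempty (S ≃* QuaternionGroup (2 ^ n)) := by
      rcases Cfsg.Agent.Lib.Helper1FpfSylow.sylow_cyclic_or_quaternion K E hK hfpf 2 S with h | h
      · exact absurd h hS
      · exact h
    have hSn : (S : Subgroup E).Normal := inferInstance
    obtain ⟨C', hC'⟩ := Subgroup.exists_right_complement'_of_coprime S.card_coprime_index
    have hcard : Nat.card C' = (S : Subgroup E).index := by
      have h2 := hC'.card_mul_card
      have h3 := (S : Subgroup E).card_mul_index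
      have : 0 < Nat.card (S : Subgroup E) := Nat.card_pos
      exact Nat.eq_of_mul_eq_mul_left this (h2.trans h3.symm)
    have hCE : C'.map E.subtype ≤ E := Subgroup.map_subtype_le C'
    have hodd : Odd (Nat.card (C'.map E.subtype)) := by
      rw [Nat.card_congr (C'.equivMapOfInjective E.subtype E.subtype_injective).symm.toEquiv, hcard,
        ← Nat.not_even_iff_odd, even_iff_two_dvd]
      exact S.not_dvd_index
    refine ⟨C'.map E.subtype, (S : Subgroup E).map E.subtype, ?_, ?_, ?_, hodd, n, ?_⟩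
    · rw [← Subgroup.map_sup, sup_comm, hC'.sup_eq_top, ← MonoidHom.range_eq_map,
        Subgroup.range_subtype]
    · intro a ha b hb
      refine odd_central hCN K E hK hfpf (hCE ha) (Subgroup.map_subtype_le _ hb) ?_
      have h1 : orderOf a ∣ Nat.card (C'.map E.subtype) := by
        have := orderOf_dvd_natCard (⟨a, ha⟩ : C'.map E.subtype)
        rwa [Subgroup.orderOf_mk] at this
      exact Odd.of_dvd_nat hodd h1
    · exact cyclic_of_odd hCN K _ hK (hfpf.mono hCE) hodd
    · obtain ⟨e⟩ := hn
      exact ⟨(((S : Subgroup E).equivMapOfInjective E.subtype E.subtype_injective).symm).trans e⟩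

end Cfsg.Agent.Lib.Helper54CNCase1
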