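import Cfsg.Agent.Lib.Helper54CNFpf
import Cfsg.Agent.S1473
import Cfsg.Agent.S0044
import Cfsg.Agent.Lib.Helper3DerFit

set_option autoImplicit false
open Cfsg
open Cfsg.Agent.Lib.Helper31Nilpotent Cfsg.Agent.Lib.Helper54CNFpf
open scoped Pointwise

namespace Cfsg.Agent.Lib.Helper54CNCase2

set_option linter.unusedSectionVars false

variable {G : Type*} [Group G] [Finite G]

theorem orderOf_of_mem_pgroup {p : ℕ} [Fact p.Prime] {P : Subgroup G} (hP : IsPGroup p P) {x : G} (hx : x ∈ P) :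
    ∃ k, orderOf x = p ^ k := by
  obtain ⟨k, hk⟩ := (IsPGroup.iff_orderOf.mp hP) ⟨x, hx⟩
  exact ⟨k, by rw [← hk, Subgroup.orderOf_mk]⟩

theorem eq_one_of_mem {p : ℕ} [Fact p.Prime] {P : Subgroup G} (hP : IsPGroup p P) {b : G} (hb : b ∈ P)
    (hco : (orderOf b).Coprime p) : b = 1 := by
  obtain ⟨k, hk⟩ := orderOf_of_mem_pgroup hP hb
  rw [← orderOf_eq_one_iff]
  have h1 : (orderOf b).Coprime (orderOf b) := by
    conv_rhs => rw [hk]
    exact Nat.Coprime.pow_right k hco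
  exact (Nat.coprime_self _).mp h1

theorem orderOf_dvd_card_of_mem {B : Subgroup G} {b : G} (hb : b ∈ B) : orderOf b ∣ Nat.card B := by
  have := orderOf_dvd_natCard (⟨b, hb⟩ : B)
  rwa [Subgroup.orderOf_mk] at this

/-- two nontrivial cores for different primes force a normal Sylow subgroup. -/
theorem exists_normal_sylow (hCN : Cfsg.IsCNGroup G) {p q : ℕ} [Fact p.Prime] [Fact q.Prime]
    (hpq : p ≠ q) (hP : pCore p G ≠ ⊥) (hQ : pCore q G ≠ ⊥) :
    ∃ S : Sylow p G, (S : Subgroup G) ≠ ⊥ ∧ (S : Subgroup G).Normal := by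
  have hPn : (pCore p G).Normal := Cfsg.Agent.Lib.Helper1Fitting.pCore_normal p
  have hQn : (pCore q G).Normal := Cfsg.Agent.Lib.Helper1Fitting.pCore_normal q
  have hPp : IsPGroup p (pCore p G) := Cfsg.Agent.Lib.Helper1Fitting.pCore_isPGroup p
  have hQq : IsPGroup q (pCore q G) := Cfsg.Agent.Lib.Helper1Fitting.pCore_isPGroup q
  let S : Sylow p G := default
  have hPS : pCore p G ≤ S := by
    rw [Cfsg.Agent.Lib.Helper1Fitting.pCore_eq_iInf_sylow p]
    exact iInf_le _ S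
  have hS1 : (S : Subgroup G) ≠ ⊥ := fun h => hP (eq_bot_iff.mpr (h ▸ hPS))
  refine ⟨S, hS1, ?_⟩
  have hSn : Group.IsNilpotent S := S.isPGroup'.isNilpotent
  have hne : (pCore p G).subgroupOf S ≠ ⊥ := by
    intro h
    rw [Subgroup.subgroupOf_eq_bot, disjoint_iff, inf_eq_left.mpr hPS] at h
    exact hP h
  obtain ⟨z, hzP, hzc, hz1⟩ := exists_center_mem_of_normal ((pCore p G).subgroupOf S) hne
  have hz1' : (z : G) ≠ 1 := fun h => hz1 (Subtype.ext h)
  have hC := hCN _ hz1'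
  have hSC : ∀ s ∈ S, s ∈ Subgroup.centralizer ({(z : G)} : Set G) := by
    intro s hs
    rw [Subgroup.mem_centralizer_singleton_iff]
    exact congrArg Subtype.val (Subgroup.mem_center_iff.mp hzc ⟨s, hs⟩)
  have hQC : ∀ y ∈ pCore q G, y ∈ Subgroup.centralizer ({(z : G)} : Set G) := by
    intro y hy
    rw [Subgroup.mem_centralizer_singleton_iff]
    exact (Subgroup.commute_of_normal_of_disjoint _ _ hQn hPn
      (IsPGroup.disjoint_of_ne q p hpq.symm _ _ hQq hPp) y z hy hzP)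
  have hcomm : ∀ s ∈ S, ∀ y ∈ pCore q G, y * s = s * y := by
    intro s hs y hy
    obtain ⟨a, ha⟩ := orderOf_of_mem_pgroup S.isPGroup' hs
    obtain ⟨b, hb⟩ := orderOf_of_mem_pgroup hQq hy
    exact Cfsg.Agent.S1477.commute_in _ hC (hQC y hy) (hSC s hs)
      (by rw [ha, hb]; exact Nat.Coprime.pow b a ((Nat.coprime_primes Fact.out Fact.out).mpr hpq.symm))
  have hSle : (S : Subgroup G) ≤ Subgroup.centralizer (pCore q G : Set G) := by
    intro s hs
    rw [Subgroup.mem_centralizer_iff]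
    intro y hy
    exact hcomm s hs y hy
  obtain ⟨y0, hy0, hy01⟩ := Cfsg.Agent.Lib.Helper29Basic.exists_ne_one_of_ne_bot hQ
  have hCn : Group.IsNilpotent (Subgroup.centralizer (pCore q G : Set G)) :=
    Cfsg.Agent.S1474.nilp_of_le (hCN y0 hy01)
      (Subgroup.centralizer_le (Set.singleton_subset_iff.mpr hy0))
  have hCnorm : (Subgroup.centralizer (pCore q G : Set G)).Normal := inferInstance
  constructor
  intro s hs g
  obtain ⟨a, ha⟩ := orderOf_of_mem_pgroup S.isPGroup' hs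
  have h1 : g * s * g⁻¹ ∈ Subgroup.centralizer (pCore q G : Set G) := hCnorm.conj_mem s (hSle hs) g
  have h2 : orderOf (g * s * g⁻¹) = p ^ a := by
    rw [← ha]; exact (MulAut.conj g).orderOf_eq s
  have h3 := mem_sylow_of_orderOf (S.subtype hSle) ⟨_, h1⟩ (k := a)
    (by rw [Subgroup.orderOf_mk, h2])
  exact h3

theorem fpf_pCore (hCN : Cfsg.IsCNGroup G) {p : ℕ} [Fact p.Prime] (P : Subgroup G)
    (hPp : IsPGroup p P) (hP : P ≠ ⊥)
    (hcent : Subgroup.centralizer (P : Set G) ≤ P) {a : G} (ha1 : a ≠ 1)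
    (hap : (orderOf a).Coprime p) : P ⊓ Subgroup.centralizer ({a} : Set G) = ⊥ := by
  rw [eq_bot_iff]
  intro x hx
  rw [Subgroup.mem_bot]
  by_contra hx1
  obtain ⟨hxP, hxa⟩ := Subgroup.mem_inf.mp hx
  rw [Subgroup.mem_centralizer_singleton_iff] at hxa
  have hnt : Nontrivial P := (Subgroup.nontrivial_iff_ne_bot P).mpr hP
  have hcnt := hPp.center_nontrivial
  obtain ⟨z, hz⟩ := exists_ne (1 : Subgroup.center P)
  have hz1 : ((z : P) : G) ≠ 1 := fun h => hz (Subtype.ext (Subtype.ext h))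
  have hzc : ∀ y ∈ P, y * ((z : P) : G) = ((z : P) : G) * y := fun y hy =>
    congrArg Subtype.val (Subgroup.mem_center_iff.mp z.2 ⟨y, hy⟩)
  obtain ⟨j, hj⟩ := orderOf_of_mem_pgroup hPp (z : P).2
  have h1 : a * ((z : P) : G) = ((z : P) : G) * a :=
    Cfsg.Agent.S1477.commute_in _ (hCN x hx1)
      (Subgroup.mem_centralizer_singleton_iff.mpr hxa.symm)
      (Subgroup.mem_centralizer_singleton_iff.mpr (hzc x hxP).symm)
      (by rw [hj]; exact Nat.Coprime.pow_right j hap)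
  have h2 : a ∈ Subgroup.centralizer (P : Set G) := by
    rw [Subgroup.mem_centralizer_iff]
    intro y hy
    obtain ⟨i, hi⟩ := orderOf_of_mem_pgroup hPp hy
    exact (Cfsg.Agent.S1477.commute_in _ (hCN _ hz1)
      (Subgroup.mem_centralizer_singleton_iff.mpr h1)
      (Subgroup.mem_centralizer_singleton_iff.mpr (hzc y hy))
      (by rw [hi]; exact Nat.Coprime.pow_right i hap)).symm
  exact ha1 (eq_one_of_mem hPp (hcent h2) hap)


theorem three_step_core (hCN : Cfsg.IsCNGroup G) [Group.IsSolvable G] (p : ℕ) [Fact p.Prime]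
    (P : Subgroup G) [hPn : P.Normal] (hPp : IsPGroup p P) (hP1 : P ≠ ⊥)
    (hfpf : ∀ a : G, a ≠ 1 → (orderOf a).Coprime p → P ⊓ Subgroup.centralizer ({a} : Set G) = ⊥)
    (hmaxP : ∀ N : Subgroup G, N.Normal → IsPGroup p N → N ≤ P) (hnotSyl : p ∣ P.index) :
    ∃ A : Subgroup G, A ≠ ⊥ ∧ IsCyclic A ∧ Odd (Nat.card A) ∧ (Nat.card A).Coprime p ∧
      (P ⊔ A).Normal ∧ P ⊔ A ≠ ⊤ ∧ (∃ n : ℕ, (P ⊔ A).index = p ^ n) ∧
      (∀ a ∈ A, a ≠ 1 → P ⊓ Subgroup.centralizer ({a} : Set G) = ⊥) ∧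
      ∀ x : G, x ∉ P ⊔ A → ∀ a ∈ A, a ≠ 1 → x * a * x⁻¹ * a⁻¹ ∉ P := by
  have hpp : p.Prime := Fact.out
  obtain ⟨π, hπ⟩ : ∃ π : G →* G ⧸ P, π = QuotientGroup.mk' P := ⟨_, rfl⟩
  have hπs : Function.Surjective π := by rw [hπ]; exact QuotientGroup.mk'_surjective P
  have hπk : ∀ x, π x = 1 ↔ x ∈ P := by
    intro x; rw [hπ]; exact QuotientGroup.eq_one_iff x
  have hker : π.ker = P := by rw [hπ]; exact QuotientGroup.ker_mk' P
  have hCNq : IsCNGroup (G ⧸ P) := Cfsg.Agent.S1473.result hCN P inferInstance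
  obtain ⟨Fb, hFb⟩ : ∃ Fb : Subgroup (G ⧸ P), Fb = fittingSubgroup (G ⧸ P) := ⟨_, rfl⟩
  have hcq : Subgroup.centralizer (Fb : Set (G ⧸ P)) ≤ Fb := by
    rw [hFb]; exact Cfsg.Agent.S0044.result
  have hFbnorm : Fb.Normal := by rw [hFb]; exact Cfsg.Agent.Lib.Helper1Fitting.fitting_normal
  -- (d)
  have hFbp : (Nat.card Fb).Coprime p := by
    rw [Nat.coprime_comm, Nat.Prime.coprime_iff_not_dvd hpp]
    intro hd
    obtain ⟨xb, hxb⟩ := exists_prime_orderOf_dvd_card' (G := Fb) p hd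
    have h1 : (xb : G ⧸ P) ∈ pCore p (G ⧸ P) := by
      refine Cfsg.Agent.Lib.Helper3DerFit.mem_pCore_of_mem_fitting p (hFb ▸ xb.2) (k := 1) ?_
      rw [pow_one, ← hxb, ← Subgroup.orderOf_coe]
      exact pow_orderOf_eq_one _
    have h2 : (pCore p (G ⧸ P)).comap π ≤ P := by
      apply hmaxP
      · have := Cfsg.Agent.Lib.Helper1Fitting.pCore_normal (G := G ⧸ P) p
        infer_instance
      · exact (Cfsg.Agent.Lib.Helper1Fitting.pCore_isPGroup (G := G ⧸ P) p).comap_of_ker_isPGroup π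
          (by rw [hker]; exact hPp)
    obtain ⟨x, hx⟩ := hπs (xb : G ⧸ P)
    have h3 : x ∈ P := h2 (by rw [Subgroup.mem_comap, hx]; exact h1)
    rw [← hπk, hx] at h3
    have h4 : xb = 1 := Subtype.ext h3
    rw [h4, orderOf_one] at hxb
    exact hpp.one_lt.ne hxb
  obtain ⟨K, hK⟩ : ∃ K : Subgroup G, K = Fb.comap π := ⟨_, rfl⟩
  have hKmem : ∀ x, x ∈ K ↔ π x ∈ Fb := by intro x; rw [hK]; exact Subgroup.mem_comap
  have hKn : K.Normal := by rw [hK]; infer_instance
  have hPK : P ≤ K := by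
    intro x hx
    rw [hKmem, (hπk x).mpr hx]; exact Fb.one_mem
  have hrel : P.relIndex K = Nat.card Fb := by
    have h1 : P = (⊥ : Subgroup (G ⧸ P)).comap π := hker.symm
    have h2 : P.relIndex K = ((⊥ : Subgroup (G ⧸ P)).comap π).relIndex K :=
      congrArg (fun X : Subgroup G => X.relIndex K) h1
    rw [h2, Subgroup.relIndex_comap, hK, Subgroup.map_comap_eq_self_of_surjective hπs,
      Subgroup.relIndex_bot_left]
  obtain ⟨n0, hn0⟩ := hPp.exists_card_eq
  obtain ⟨A, hAK, hAcard, hAdec⟩ := exists_compl_in P K hPK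
    (by rw [hrel, hn0]; exact (Nat.Coprime.pow_right n0 hFbp).symm)
  rw [hrel] at hAcard
  have hAp : (Nat.card A).Coprime p := hAcard ▸ hFbp
  have hsup : P ⊔ A = K := by
    apply le_antisymm (sup_le hPK hAK)
    intro x hx
    obtain ⟨u, hu, a, ha, rfl⟩ := hAdec x hx
    exact Subgroup.mul_mem_sup hu ha
  have hcardK : Nat.card K = Nat.card P * Nat.card A := by
    rw [← Cfsg.Agent.Lib.Helper29Basic.card_mul_relIndex hPK, hrel, hAcard]
  -- general fpf
  have hfB : ∀ B : Subgroup G, (Nat.card B).Coprime p → FpfOn P B := by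
    intro B hB b hb hb1
    exact hfpf b hb1 (Nat.Coprime.coprime_dvd_left (orderOf_dvd_card_of_mem hb) hB)
  have hfA := hfB A hAp
  have hAP : ∀ a ∈ A, a ∈ P → a = 1 := fun a ha haP =>
    eq_one_of_mem hPp haP (Nat.Coprime.coprime_dvd_left (orderOf_dvd_card_of_mem ha) hAp)
  -- (j)
  have hFbtop : Fb ≠ ⊤ := by
    intro h
    have h1 : P.index = Nat.card Fb := by
      rw [h, Subgroup.card_top, Subgroup.index_eq_card]
    rw [h1] at hnotSyl
    exact hpp.one_lt.ne' (Nat.Coprime.eq_one_of_dvd hFbp.symm hnotSyl)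
  have hqnn : ¬ Group.IsNilpotent (G ⧸ P) := by
    intro h
    apply hFbtop
    rw [eq_top_iff, hFb]
    exact Cfsg.Agent.Lib.Helper1Fitting.le_fitting inferInstance
      ((Group.isNilpotent_congr Subgroup.topEquiv).mpr h)
  have hFbbot : Fb ≠ ⊥ := by
    intro h
    apply hFbtop
    rw [eq_top_iff]
    refine le_trans ?_ hcq
    rw [h]
    intro x _
    rw [Subgroup.mem_centralizer_iff]
    intro y hy
    rw [SetLike.mem_coe, Subgroup.mem_bot] at hy
    rw [hy]; simp
  have hA1 : A ≠ ⊥ := by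
    intro h
    apply hFbbot
    rw [← Subgroup.card_eq_one, ← hAcard, h]
    simp
  -- (n)
  have hodd : Odd (Nat.card A) := by
    rw [← Nat.not_even_iff_odd, even_iff_two_dvd]
    intro h2
    have : Fact (Nat.Prime 2) := ⟨Nat.prime_two⟩
    obtain ⟨s, hs⟩ := exists_prime_orderOf_dvd_card' (G := A) 2 h2
    have hs2 : orderOf (s : G) = 2 := by rw [Subgroup.orderOf_coe, hs]
    have hs1 : (s : G) ≠ 1 := by
      intro h; rw [h, orderOf_one] at hs2; norm_num at hs2
    have hsP : (s : G) ∉ P := fun h => hs1 (hAP _ s.2 h)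
    have hss : (s : G) ^ 2 = 1 := by rw [← hs2]; exact pow_orderOf_eq_one _
    have hcen : ∀ g : G, π (g * s * g⁻¹) = π s := by
      intro g
      have ht : g * s * g⁻¹ ∈ K := hKn.conj_mem _ (hAK s.2) g
      obtain ⟨u, hu, a', ha', hua⟩ := hAdec _ ht
      have h3 : π (g * s * g⁻¹) = π a' := by
        rw [hua, map_mul, (hπk u).mpr hu, one_mul]
      have h4 : a' ^ 2 = 1 := by
        apply hAP _ (A.pow_mem ha' 2)
        rw [← hπk, map_pow, ← h3, ← map_pow, conj_pow, hss]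
        simp
      have h5 : a' ≠ 1 := by
        intro h
        rw [h, map_one, hπk] at h3
        apply hsP
        have := hPn.conj_mem _ h3 g⁻¹
        simpa [mul_assoc] using this
      have h6 : orderOf a' = 2 := orderOf_eq_prime h4 h5
      rw [h3, unique_involution P A hP1 hfA s.2 ha' hs2 h6]
    have hπs1 : π s ≠ 1 := fun h => hsP ((hπk _).mp h)
    apply hqnn
    have h7 : Subgroup.centralizer ({π s} : Set (G ⧸ P)) = ⊤ := by
      rw [eq_top_iff]
      intro y _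
      obtain ⟨g, rfl⟩ := hπs y
      rw [Subgroup.mem_centralizer_singleton_iff]
      have := hcen g
      rw [map_mul, map_mul, map_inv, mul_inv_eq_iff_eq_mul] at this
      exact this
    have h8 := hCNq _ hπs1
    rw [h7] at h8
    exact (Group.isNilpotent_congr Subgroup.topEquiv).mp h8
  have hcyc : IsCyclic A := cyclic_of_odd hCN P A hP1 hfA hodd
  -- (p)
  have hpK : ∀ x : G, (orderOf x).Coprime p → x ∈ K := by
    intro x hx
    have hPD : P ≤ K ⊔ Subgroup.zpowers x := hPK.trans le_sup_left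
    have hrD : (P.relIndex (K ⊔ Subgroup.zpowers x)).Coprime p := by
      have h1 := Cfsg.Agent.Lib.Helper29Basic.card_mul_relIndex hPD
      have h2 := Cfsg.Agent.Lib.Helper29Basic.card_sup_dvd K (Subgroup.zpowers x)
      rw [← h1, hcardK, Nat.card_zpowers, mul_assoc] at h2
      have h3 := Nat.dvd_of_mul_dvd_mul_left Nat.card_pos h2
      exact Nat.Coprime.coprime_dvd_left h3 (Nat.Coprime.mul_left hAp hx)
    obtain ⟨B, hBD, hBcard, hBdec⟩ := exists_compl_in P _ hPD
      (by rw [hn0]; exact (Nat.Coprime.pow_right n0 hrD).symm)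
    have hBp : (Nat.card B).Coprime p := hBcard ▸ hrD
    have hfB' := hfB B hBp
    obtain ⟨u, hu, b2, hb2, rfl⟩ := hBdec x (Subgroup.mem_sup_right (Subgroup.mem_zpowers x))
    refine K.mul_mem (hPK hu) ?_
    rw [hKmem]
    apply hcq
    rw [Subgroup.mem_centralizer_iff]
    intro kb hkb
    obtain ⟨k, rfl⟩ := hπs kb
    have hkK : k ∈ K := (hKmem k).mpr hkb
    obtain ⟨u', hu', b1, hb1, rfl⟩ := hBdec k (Subgroup.mem_sup_left hkK)
    have hb1K : b1 ∈ K := by
      have := K.mul_mem (K.inv_mem (hPK hu')) hkK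
      simpa using this
    have hb1odd : Odd (orderOf b1) := by
      have h1 : orderOf b1 ∣ Nat.card P * Nat.card A := hcardK ▸ orderOf_dvd_card_of_mem hb1K
      have h2 : (orderOf b1).Coprime (Nat.card P) := by
        rw [hn0]
        exact Nat.Coprime.pow_right n0
          (Nat.Coprime.coprime_dvd_left (orderOf_dvd_card_of_mem hb1) hBp)
      exact Odd.of_dvd_nat hodd (h2.dvd_of_dvd_mul_left h1)
    have h3 := odd_central hCN P B hP1 hfB' hb1 hb2 hb1odd
    rw [map_mul, (hπk u').mpr hu', one_mul, ← map_mul, ← map_mul, h3]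
  -- (q)
  have hidx : ∃ n : ℕ, K.index = p ^ n := by
    have h1 : IsPGroup p (G ⧸ K) := by
      intro gb
      obtain ⟨g, rfl⟩ := QuotientGroup.mk_surjective gb
      obtain ⟨k, m, hkm, e1, e2, hmp⟩ := exists_order_split p g
      refine ⟨k, ?_⟩
      rw [← QuotientGroup.mk_pow, QuotientGroup.eq_one_iff]
      exact hpK _ (e2 ▸ hmp)
    obtain ⟨n, hn⟩ := h1.exists_card_eq
    exact ⟨n, by rw [Subgroup.index_eq_card, hn]⟩
  have hKtop : K ≠ ⊤ := by
    intro h
    apply hFbtop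
    rw [eq_top_iff]
    intro y _
    obtain ⟨g, rfl⟩ := hπs y
    rw [← hKmem, h]; exact Subgroup.mem_top g
  refine ⟨A, hA1, hcyc, hodd, hAp, hsup ▸ hKn, hsup ▸ hKtop, hsup ▸ hidx, hfA, ?_⟩
  rw [hsup]
  intro x hxK a ha ha1 hxa
  apply hxK
  have haP : π a ≠ 1 := fun h => ha1 (hAP a ha ((hπk a).mp h))
  have hcomm : π x * π a = π a * π x := by
    rw [← hπk, map_mul, map_mul, map_mul, map_inv, map_inv, mul_inv_eq_one,
      mul_inv_eq_iff_eq_mul] at hxa
    exact hxa
  have hCb := hCNq _ haP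
  obtain ⟨k, m, hkm, e1, e2, hmp⟩ := exists_order_split p x
  apply mem_of_coprime_pow K x hkm.symm
  · rw [hKmem]
    apply hcq
    rw [Subgroup.mem_centralizer_iff]
    intro kb hkb
    obtain ⟨k', rfl⟩ := hπs kb
    obtain ⟨u', hu', a', ha', rfl⟩ := hAdec k' ((hKmem k').mpr hkb)
    have h1 : π (u' * a') = π a' := by rw [map_mul, (hπk u').mpr hu', one_mul]
    rw [h1] at hkb ⊢
    have h2 : π a' ∈ Subgroup.centralizer ({π a} : Set (G ⧸ P)) := by
      rw [Subgroup.mem_centralizer_singleton_iff, ← map_mul, ← map_mul]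
      congr 1
      exact congrArg Subtype.val (comm_of_isCyclic hcyc ⟨a', ha'⟩ ⟨a, ha⟩)
    have h3 : π (x ^ m) ∈ Subgroup.centralizer ({π a} : Set (G ⧸ P)) := by
      rw [map_pow]
      apply Subgroup.pow_mem
      rw [Subgroup.mem_centralizer_singleton_iff]
      exact hcomm
    refine Cfsg.Agent.S1477.commute_in _ hCb h2 h3 ?_
    have h4 : orderOf (π a') ∣ Nat.card Fb := orderOf_dvd_card_of_mem hkb
    have h5 : orderOf (π (x ^ m)) ∣ p ^ k := e1 ▸ orderOf_map_dvd π (x ^ m)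
    exact Nat.Coprime.coprime_dvd_left h4 (Nat.Coprime.coprime_dvd_right h5
      (Nat.Coprime.pow_right k hFbp))
  · exact hpK _ (e2 ▸ hmp)

end Cfsg.Agent.Lib.Helper54CNCase2
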