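import Cfsg.Agent.S1474
import Cfsg.Agent.S0068
import Cfsg.Agent.Lib.Helper30SZ
import Cfsg.Agent.Lib.Helper1FpfSylow

/-! Fixed-point-free subgroups of CN-groups (tools for S1476). -/

set_option autoImplicit false
open Cfsg
open Cfsg.Agent.Lib.Helper31Nilpotent
open scoped Pointwise

namespace Cfsg.Agent.Lib.Helper54CNFpf

set_option linter.unusedSectionVars false

variable {G : Type*} [Group G] [Finite G]

/-- `B` acts fixed point freely on `K`. -/
def FpfOn (K B : Subgroup G) : Prop :=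
  ∀ b ∈ B, b ≠ 1 → K ⊓ Subgroup.centralizer ({b} : Set G) = ⊥

theorem FpfOn.mono {K B C : Subgroup G} (h : FpfOn K B) (hC : C ≤ B) : FpfOn K C :=
  fun b hb hb1 => h b (hC hb) hb1

theorem le_normalizer_of_normal (K B : Subgroup G) [K.Normal] :
    B ≤ Subgroup.normalizer (K : Set G) := by
  rw [Subgroup.normalizer_eq_top]; exact le_top

theorem center_of_fpf (K B : Subgroup G) [K.Normal] (hK : K ≠ ⊥) (hB : B ≠ ⊥)
    (hfpf : FpfOn K B) : Subgroup.center B ≠ ⊥ := by
  have hn := le_normalizer_of_normal K B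
  have hcop := Cfsg.Agent.Lib.Helper1FpfSylow.coprime_card B K hn hfpf
  have hc := Cfsg.Agent.Lib.Helper30SZ.isComplement'_subgroupOf_sup hn hcop
  have hKM : K ≤ K ⊔ B := le_sup_left
  have hBM : B ≤ K ⊔ B := le_sup_right
  have hK' : K.subgroupOf (K ⊔ B) ≠ ⊥ := by
    intro h
    rw [Subgroup.subgroupOf_eq_bot, disjoint_iff, inf_eq_left.mpr hKM] at h
    exact hK h
  have hB' : B.subgroupOf (K ⊔ B) ≠ ⊥ := by
    intro h
    rw [Subgroup.subgroupOf_eq_bot, disjoint_iff, inf_eq_left.mpr hBM] at h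
    exact hB h
  have hf' : ∀ h ∈ B.subgroupOf (K ⊔ B), h ≠ 1 →
      K.subgroupOf (K ⊔ B) ⊓ Subgroup.centralizer {h} = ⊥ := by
    intro h hh h1
    rw [eq_bot_iff]
    intro x hx
    obtain ⟨hx1, hx2⟩ := Subgroup.mem_inf.mp hx
    rw [Subgroup.mem_centralizer_singleton_iff] at hx2
    have h3 : (x : G) ∈ K ⊓ Subgroup.centralizer ({(h : G)} : Set G) := by
      refine Subgroup.mem_inf.mpr ⟨hx1, ?_⟩
      rw [Subgroup.mem_centralizer_singleton_iff]
      exact congrArg Subtype.val hx2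
    rw [hfpf h hh (fun e => h1 (Subtype.ext e)), Subgroup.mem_bot] at h3
    rw [Subgroup.mem_bot]
    exact Subtype.ext h3
  have hcen := Cfsg.Agent.S0069.result _ _ hc hK' hB' hf'
  obtain ⟨z, hz⟩ := Subgroup.ne_bot_iff_exists_ne_one.mp hcen
  intro hbot
  have h1 : (⟨((z : B.subgroupOf (K ⊔ B)) : ↥(K ⊔ B)), (z : B.subgroupOf (K ⊔ B)).2⟩ : B) ∈
      Subgroup.center B := by
    rw [Subgroup.mem_center_iff]
    intro b
    have h2 := Subgroup.mem_center_iff.mp z.2 ⟨⟨b, hBM b.2⟩, b.2⟩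
    apply Subtype.ext
    exact congrArg (fun t : B.subgroupOf (K ⊔ B) => ((t : ↥(K ⊔ B)) : G)) h2
  rw [hbot, Subgroup.mem_bot] at h1
  apply hz
  apply Subtype.ext
  apply Subtype.ext
  apply Subtype.ext
  exact congrArg (fun t : B => (t : G)) h1

theorem nilp_of_fpf (hCN : Cfsg.IsCNGroup G) (K B : Subgroup G) [K.Normal] (hK : K ≠ ⊥)
    (hfpf : FpfOn K B) : Group.IsNilpotent B := by
  by_cases hB : B = ⊥
  · subst hB
    infer_instance
  · exact Cfsg.Agent.S1474.nilp_of_center hCN B (center_of_fpf K B hK hB hfpf)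

/-- a subgroup containing all elements of prime power order of `E` contains `E`. -/
theorem le_of_primePow (E S : Subgroup G)
    (h : ∀ x ∈ E, ∀ r k : ℕ, r.Prime → orderOf x = r ^ k → x ∈ S) : E ≤ S := by
  have key : ∀ n : ℕ, ∀ x ∈ E, orderOf x = n → x ∈ S := by
    intro n
    induction n using Nat.strong_induction_on with
    | _ n ih =>
      intro x hx hn
      by_cases h1 : n = 1
      · rw [h1, orderOf_eq_one_iff] at hn
        rw [hn]; exact S.one_mem
      · obtain ⟨r, hr, hrn⟩ := Nat.exists_prime_and_dvd h1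
        have := Fact.mk hr
        obtain ⟨k, m, hkm, e1, e2, hmp⟩ := exists_order_split r x
        apply mem_of_coprime_pow S x hkm.symm
        · exact h _ (E.pow_mem hx m) r k hr e1
        · refine ih m ?_ _ (E.pow_mem hx _) e2
          have hpos : 0 < n := hn ▸ orderOf_pos x
          have h2 : m ∣ n := by
            rw [← e2, ← hn]; exact orderOf_pow_dvd _
          refine lt_of_le_of_ne (Nat.le_of_dvd hpos h2) ?_
          intro hmn
          rw [hmn] at hmp
          exact hr.one_lt.ne' (Nat.Coprime.eq_one_of_dvd hmp.symm hrn)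
  exact fun x hx => key _ x hx rfl

theorem not_quaternion_of_odd {P : Type*} [Group P] [Finite P] (hodd : ¬ 2 ∣ Nat.card P) (n : ℕ) :
    ¬ Nonempty (P ≃* QuaternionGroup (2 ^ n)) := by
  rintro ⟨e⟩
  apply hodd
  have : NeZero (2 ^ n) := ⟨by positivity⟩
  rw [Nat.card_congr e.toEquiv, Nat.card_eq_fintype_card, QuaternionGroup.card]
  exact ⟨2 * 2 ^ n, by ring⟩

theorem comm_of_isCyclic {P : Type*} [Group P] (h : IsCyclic P) (x y : P) : x * y = y * x := by
  obtain ⟨g, hg⟩ := h.exists_generator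
  obtain ⟨i, rfl⟩ := hg x
  obtain ⟨j, rfl⟩ := hg y
  exact (Commute.zpow_zpow_self g i j)

/-- an element of `B` all of whose relevant Sylow subgroups are cyclic is central in `B`. -/
theorem central_of_cyclic_sylow (B : Subgroup G) (hBn : Group.IsNilpotent B) {x : G} (hx : x ∈ B)
    (hgood : ∀ r : ℕ, ∀ _ : Fact r.Prime, r ∣ orderOf x → ∀ S : Sylow r B, IsCyclic S)
    {y : G} (hy : y ∈ B) : x * y = y * x := by
  -- step 1
  have step1 : ∀ u ∈ B, ∀ v ∈ B, ∀ r i s j : ℕ, r.Prime → s.Prime → r ∣ orderOf x →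
      orderOf u = r ^ i → orderOf v = s ^ j → u * v = v * u := by
    intro u hu v hv r i s j hr hs hrx hui hvj
    by_cases hrs : r = s
    · subst hrs
      have := Fact.mk hr
      let S : Sylow r B := default
      have h1 : (⟨u, hu⟩ : B) ∈ S :=
        mem_sylow_of_orderOf S _ (k := i) (by rw [Subgroup.orderOf_mk, hui])
      have h2 : (⟨v, hv⟩ : B) ∈ S :=
        mem_sylow_of_orderOf S _ (k := j) (by rw [Subgroup.orderOf_mk, hvj])
      have h3 := comm_of_isCyclic (hgood r this hrx S) ⟨_, h1⟩ ⟨_, h2⟩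
      exact congrArg (fun t : S => ((t : B) : G)) h3
    · exact Cfsg.Agent.S1477.commute_in B hBn hu hv
        (by rw [hui, hvj]; exact Nat.Coprime.pow i j ((Nat.coprime_primes hr hs).mpr hrs))
  have step3 : Subgroup.zpowers x ≤ Subgroup.centralizer ({y} : Set G) := by
    apply le_of_primePow
    intro u hu r i hr hui
    rw [Subgroup.mem_centralizer_singleton_iff]
    have huB : u ∈ B := (Subgroup.zpowers_le.mpr hx) hu
    by_cases hi : i = 0
    · rw [hi, pow_zero, orderOf_eq_one_iff] at hui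
      rw [hui]; simp
    have hrx : r ∣ orderOf x := by
      have h1 : orderOf u ∣ orderOf x := by
        have h2 := Subgroup.card_dvd_of_le (Subgroup.zpowers_le.mpr hu)
        rwa [Nat.card_zpowers, Nat.card_zpowers] at h2
      exact (hui ▸ dvd_pow_self r hi).trans h1
    have step2 : B ≤ Subgroup.centralizer ({u} : Set G) := by
      apply le_of_primePow
      intro v hv s j hs hvj
      rw [Subgroup.mem_centralizer_singleton_iff]
      exact (step1 u huB v hv r i s j hr hs hrx hui hvj).symm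
    exact (Subgroup.mem_centralizer_singleton_iff.mp (step2 hy)).symm
  exact Subgroup.mem_centralizer_singleton_iff.mp (step3 (Subgroup.mem_zpowers x))

theorem sylow_cyclic_of_ne_two (K B : Subgroup G) [K.Normal] (hK : K ≠ ⊥) (hfpf : FpfOn K B)
    (r : ℕ) [hr : Fact r.Prime] (h2 : r ≠ 2) (S : Sylow r B) : IsCyclic S := by
  rcases Cfsg.Agent.Lib.Helper1FpfSylow.sylow_cyclic_or_quaternion K B hK hfpf r S with h | ⟨n, h⟩
  · exact h
  · exfalso
    refine not_quaternion_of_odd ?_ n h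
    intro hd
    obtain ⟨k, hk⟩ := S.isPGroup'.exists_card_eq
    rw [hk] at hd
    exact h2 ((Nat.prime_dvd_prime_iff_eq Nat.prime_two hr.out).mp
      (Nat.Prime.dvd_of_dvd_pow Nat.prime_two hd)).symm

/-- odd order elements of a fixed point free subgroup are central in it. -/
theorem odd_central (hCN : Cfsg.IsCNGroup G) (K B : Subgroup G) [K.Normal] (hK : K ≠ ⊥)
    (hfpf : FpfOn K B) {x y : G} (hx : x ∈ B) (hy : y ∈ B) (hodd : Odd (orderOf x)) :
    x * y = y * x := by
  refine central_of_cyclic_sylow B (nilp_of_fpf hCN K B hK hfpf) hx ?_ hy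
  intro r hr hrx S
  refine sylow_cyclic_of_ne_two K B hK hfpf r ?_ S
  rintro rfl
  exact (Nat.not_even_iff_odd.mpr hodd) (even_iff_two_dvd.mpr hrx)

theorem cyclic_of_comm (K C : Subgroup G) [K.Normal] (hK : K ≠ ⊥) (hfpf : FpfOn K C)
    (hc : ∀ x ∈ C, ∀ y ∈ C, x * y = y * x) : IsCyclic C := by
  have : IsMulCommutative C := ⟨⟨fun x y => Subtype.ext (hc x x.2 y y.2)⟩⟩
  exact Cfsg.Agent.Lib.Helper1FpfSylow.isCyclic_of_abelian C K (le_normalizer_of_normal K C) hK hfpf

theorem cyclic_of_odd (hCN : Cfsg.IsCNGroup G) (K C : Subgroup G) [K.Normal] (hK : K ≠ ⊥)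
    (hfpf : FpfOn K C) (hodd : Odd (Nat.card C)) : IsCyclic C := by
  apply cyclic_of_comm K C hK hfpf
  intro x hx y hy
  refine odd_central hCN K C hK hfpf hx hy ?_
  have h1 : orderOf x ∣ Nat.card C := by
    have := orderOf_dvd_natCard (⟨x, hx⟩ : C)
    rwa [Subgroup.orderOf_mk] at this
  exact Odd.of_dvd_nat hodd h1

theorem unique_involution (K B : Subgroup G) [K.Normal] (hK : K ≠ ⊥) (hfpf : FpfOn K B)
    {s t : G} (hs : s ∈ B) (ht : t ∈ B) (hs2 : orderOf s = 2) (ht2 : orderOf t = 2) : t = s := by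
  have hne : ∀ t : G, orderOf t = 2 → t ≠ 1 := by
    rintro t ht rfl
    rw [orderOf_one] at ht
    norm_num at ht
  obtain ⟨h1, -⟩ := Cfsg.Agent.S0068.inverts K s hs2 (hfpf s hs (hne _ hs2))
  obtain ⟨h3, -⟩ := Cfsg.Agent.S0068.inverts K t ht2 (hfpf t ht (hne _ ht2))
  by_contra hts
  have hst : (s : G)⁻¹ * t ≠ 1 := by
    intro h
    exact hts (inv_mul_eq_one.1 h).symm
  have h4 := hfpf _ (mul_mem (inv_mem hs) ht) hst
  apply hK
  rw [eq_bot_iff, ← h4]
  intro k hk
  refine ⟨hk, Subgroup.mem_centralizer_singleton_iff.2 ?_⟩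
  have e1 := h1 k hk
  have e2 := h3 k hk
  have e3 : t * k * t⁻¹ = s * k * (s : G)⁻¹ := by rw [e1, e2]
  calc k * ((s : G)⁻¹ * t) = (s : G)⁻¹ * (s * k * (s : G)⁻¹) * t := by group
    _ = (s : G)⁻¹ * (t * k * t⁻¹) * t := by rw [e3]
    _ = (s : G)⁻¹ * t * k := by group

/-- Schur--Zassenhaus inside a subgroup `D`. -/
theorem exists_compl_in (P D : Subgroup G) [P.Normal] (hPD : P ≤ D)
    (hcop : (Nat.card P).Coprime (P.relIndex D)) :
    ∃ B : Subgroup G, B ≤ D ∧ Nat.card B = P.relIndex D ∧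
      (∀ x ∈ D, ∃ u ∈ P, ∃ b ∈ B, x = u * b) := by
  have h1 : (Nat.card (P.subgroupOf D)).Coprime (P.subgroupOf D).index := by
    rw [Cfsg.Agent.Lib.Helper30SZ.card_subgroupOf_of_le hPD]
    exact hcop
  obtain ⟨B', hB'⟩ := Subgroup.exists_right_complement'_of_coprime h1
  refine ⟨B'.map D.subtype, Subgroup.map_subtype_le B', ?_, ?_⟩
  · rw [Nat.card_congr (B'.equivMapOfInjective D.subtype D.subtype_injective).symm.toEquiv]
    have h2 := hB'.card_mul_card
    have h3 := (P.subgroupOf D).card_mul_index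
    have : 0 < Nat.card (P.subgroupOf D) := Nat.card_pos
    exact Nat.eq_of_mul_eq_mul_left this (h2.trans h3.symm)
  · intro x hx
    have h2 : (⟨x, hx⟩ : D) ∈ ((P.subgroupOf D : Subgroup D) : Set D) * (B' : Set D) := by
      rw [hB'.mul_eq]; exact Set.mem_univ _
    obtain ⟨u, hu, b, hb, hub⟩ := h2
    exact ⟨u, hu, b, ⟨b, hb, rfl⟩, (congrArg Subtype.val hub).symm⟩

end Cfsg.Agent.Lib.Helper54CNFpf
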