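import Cfsg.Agent.Lib.Helper30SZ
import Cfsg.Agent.Lib.Helper53Comm
import Cfsg.Agent.Lib.Helper54Coprime

set_option autoImplicit false

/-! Dual of Thompson's `A × B` lemma. -/

namespace Cfsg.Agent.Lib.Helper54Dual

open Subgroup Cfsg.Agent.Lib.Helper30SZ Cfsg.Agent.Lib.Helper53Comm Cfsg.Agent.Lib.Helper54Coprime
open scoped commutatorElement

variable {G : Type*} [Group G]

/-- In a nilpotent subgroup `P`, `F ≤ P` and `F ≤ [F, P]` force `F = 1`. -/
theorem eq_bot_of_le_commutator {F P : Subgroup G} (hP : Group.IsNilpotent P) (hFP : F ≤ P)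
    (h : F ≤ ⁅F, P⁆) : F = ⊥ := by
  obtain ⟨n, hn⟩ := (Subgroup.isNilpotent_iff_lowerCentralSeries P).mp hP
  have key : ∀ k, F ≤ P.lowerCentralSeries k := by
    intro k
    induction k with
    | zero => exact hFP
    | succ k ih =>
      rw [Subgroup.lowerCentralSeries_succ]
      exact h.trans (Subgroup.commutator_mono ih le_rfl)
  exact le_bot_iff.mp (hn ▸ key n)

theorem isPGroup_sup {p : ℕ} [Fact p.Prime] [Finite G] {Q B : Subgroup G} (hQ : IsPGroup p Q) (hB : IsPGroup p B)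
    (hBQ : B ≤ normalizer (Q : Set G)) : IsPGroup p (Q ⊔ B : Subgroup G) :=
  IsPGroup.to_sup_of_normal_left' hQ hB hBQ

/-- Dual of Thompson's `A × B` lemma: if `A × B` acts on the `p`-group `Q`, `A` a `p'`-group, `B` a `p`-group and
`[Q, A] ≤ [Q, B]`, then `A` centralizes `Q`. -/
theorem dual_AxB [Finite G] {p : ℕ} [Fact p.Prime] (Q A B : Subgroup G) (hQ : IsPGroup p Q)
    (hB : IsPGroup p B) (hA : (Nat.card A).Coprime p) (hAQ : A ≤ normalizer (Q : Set G))
    (hBQ : B ≤ normalizer (Q : Set G)) (hAB : ⁅A, B⁆ = ⊥)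
    (hC : ⁅Q, A⁆ ≤ ⁅Q, B⁆) : Q ≤ centralizer (A : Set G) := by
  set F := ⁅Q, A⁆ with hF
  set P := Q ⊔ B with hPdef
  set M := ⁅F, P⁆ with hM
  set C := Q ⊓ centralizer (A : Set G) with hCdef
  have hPp : IsPGroup p P := isPGroup_sup hQ hB hBQ
  have hBA : B ≤ centralizer (A : Set G) := by
    rw [commutator_comm] at hAB
    exact commutator_eq_bot_iff_le_centralizer.mp hAB
  have hAB' : A ≤ centralizer (B : Set G) := commutator_eq_bot_iff_le_centralizer.mp hAB
  have hFQ : F ≤ Q := commutator_le_of_le_normalizer hAQ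
  have hQF : Q ≤ normalizer (F : Set G) := le_normalizer_commutator_self_left Q A
  have hAF : A ≤ normalizer (F : Set G) := le_normalizer_commutator_self_right Q A
  have hBF : B ≤ normalizer (F : Set G) :=
    le_normalizer_commutator hBQ (hBA.trans (centralizer_le_normalizer _))
  have hPF : P ≤ normalizer (F : Set G) := sup_le hQF hBF
  have hAP : A ≤ normalizer (P : Set G) :=
    (le_inf hAQ (hAB'.trans (centralizer_le_normalizer _))).trans (normalizer_inf_le_normalizer_sup Q B)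
  have hMF : M ≤ F := commutator_le_of_le_normalizer hPF
  have hPM : P ≤ normalizer (M : Set G) := le_normalizer_commutator_self_right F P
  have hAM : A ≤ normalizer (M : Set G) := le_normalizer_commutator hAF hAP
  have hCP : C ≤ P := inf_le_left.trans le_sup_left
  have hcop : (Nat.card A).Coprime (Nat.card Q) := by
    obtain ⟨n, hn⟩ := IsPGroup.iff_card.mp hQ
    rw [hn]; exact Nat.Coprime.pow_right n hA
  have hsolv : Group.IsSolvable A ∨ Group.IsSolvable Q := by
    right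
    have := hQ.isNilpotent
    infer_instance
  -- `B` normalizes `C`
  have hBC : ∀ b ∈ B, ∀ c ∈ C, b * c * b⁻¹ ∈ C := by
    intro b hb c hc
    obtain ⟨hc1, hc2⟩ := Subgroup.mem_inf.mp hc
    refine Subgroup.mem_inf.mpr ⟨conj_mem_of_mem_normalizer (hBQ hb) hc1, ?_⟩
    rw [Subgroup.mem_centralizer_iff]
    intro a ha
    have h1 : a * b = b * a := (Subgroup.mem_centralizer_iff.mp (hBA hb) a ha)
    have h2 : a * c = c * a := (Subgroup.mem_centralizer_iff.mp hc2 a ha)
    have h3 : a * b⁻¹ = b⁻¹ * a := by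
      have : b⁻¹ * (a * b) * b⁻¹ = b⁻¹ * (b * a) * b⁻¹ := by rw [h1]
      simpa [mul_assoc] using this.symm
    calc a * (b * c * b⁻¹) = (a * b) * c * b⁻¹ := by group
      _ = b * (a * c) * b⁻¹ := by rw [h1]; group
      _ = b * c * (a * b⁻¹) := by rw [h2]; group
      _ = b * c * b⁻¹ * a := by rw [h3]; group
  -- `[Q, B] ≤ M C`
  have h5 : ⁅Q, B⁆ ≤ M ⊔ C := by
    rw [commutator_le]
    intro e he b hb
    obtain ⟨f, hf, c, hc, rfl⟩ := exists_commutator_mul_centralizer hAQ hcop hsolv he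
    have hc' : ⁅c, b⁆ ∈ C := by
      rw [commutatorElement_def]
      have : c * b * c⁻¹ * b⁻¹ = c * (b * c⁻¹ * b⁻¹) := by group
      rw [this]
      exact C.mul_mem hc (hBC b hb _ (C.inv_mem hc))
    have h1 : ⁅f * c, b⁆ = ⁅f, ⁅c, b⁆⁆ * ⁅c, b⁆ * ⁅f, b⁆ := by
      simp only [commutatorElement_def]; group
    rw [h1]
    refine Subgroup.mul_mem _ (Subgroup.mul_mem _ ?_ ?_) ?_
    · exact Subgroup.mem_sup_left (commutator_mem_commutator hf (hCP hc'))
    · exact Subgroup.mem_sup_right hc'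
    · exact Subgroup.mem_sup_left (commutator_mem_commutator hf (Subgroup.mem_sup_right hb))
  have h6 : F ≤ M ⊔ C := hC.trans h5
  have hCM : C ≤ normalizer (M : Set G) := hCP.trans hPM
  have h7 : F ≤ M := by
    rw [hF, commutator_le]
    intro e he a ha
    obtain ⟨f, hf, c, hc, rfl⟩ := exists_commutator_mul_centralizer hAQ hcop hsolv he
    obtain ⟨m, hm, c₁, hc₁, rfl⟩ := (mem_sup_iff hCM).mp (h6 hf)
    have hcc : c₁ * c ∈ centralizer (A : Set G) :=
      Subgroup.mul_mem _ (Subgroup.mem_inf.mp hc₁).2 (Subgroup.mem_inf.mp hc).2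
    have h2 : a * (c₁ * c) = (c₁ * c) * a := Subgroup.mem_centralizer_iff.mp hcc a ha
    have h1 : ⁅m * c₁ * c, a⁆ = m * (a * m⁻¹ * a⁻¹) := by
      rw [commutatorElement_def]
      calc m * c₁ * c * a * (m * c₁ * c)⁻¹ * a⁻¹ = m * ((c₁ * c) * a) * (c₁ * c)⁻¹ * m⁻¹ * a⁻¹ := by group
        _ = m * (a * (c₁ * c)) * (c₁ * c)⁻¹ * m⁻¹ * a⁻¹ := by rw [h2]
        _ = m * (a * m⁻¹ * a⁻¹) := by group
    rw [h1]
    exact M.mul_mem hm (conj_mem_of_mem_normalizer (hAM ha) (M.inv_mem hm))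
  have h8 : F = ⊥ := eq_bot_of_le_commutator hPp.isNilpotent (hFQ.trans le_sup_left) h7
  exact commutator_eq_bot_iff_le_centralizer.mp h8

end Cfsg.Agent.Lib.Helper54Dual
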