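import Cfsg.Agent.Lib.Helper54Spcnact
import Cfsg.Agent.Lib.Helper65Spcbasic

set_option autoImplicit false

namespace Cfsg.Agent.Lib.Helper54SpcLQn

open Matrix Cfsg.Agent.Lib.Helper43St Cfsg.Agent.Lib.Helper43Sp Cfsg.Agent.Lib.Helper54Spcnact
open Cfsg.Agent.Lib.Helper65Spcbasic

variable {m : ℕ} {F : Type*} [Field F] {P : Type*} [Group P] (S : CSys m F P)

section hom

variable {Sg : Type*} [Group Sg] (A : StSys m F Sg) (ι : Sg →* P)

theorem iota_mem (hι : ∀ i j t, i ≠ j → ι (A.x i j t) = S.x (Sum.inl i) (Sum.inl j) t) (g : Sg) :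
    ι g ∈ Subgroup.closure {g : P | ∃ i j s, i ≠ j ∧ g = S.x (Sum.inl i) (Sum.inl j) s} := by
  have h : (⊤ : Subgroup Sg) ≤
      (Subgroup.closure {g : P | ∃ i j s, i ≠ j ∧ g = S.x (Sum.inl i) (Sum.inl j) s}).comap ι := by
    rw [← A.gen, Subgroup.closure_le]
    rintro _ ⟨i, j, t, hij, rfl⟩
    rw [SetLike.mem_coe, Subgroup.mem_comap, hι i j t hij]
    exact Subgroup.subset_closure ⟨i, j, t, hij, rfl⟩
  exact h (Subgroup.mem_top g)

-- piece `cLQn`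
theorem LQ (hm : 2 ≤ m) (hι : ∀ i j t, i ≠ j → ι (A.x i j t) = S.x (Sum.inl i) (Sum.inl j) t)
    (g : Sg) (q : P) (hq : q ∈ S.Q)
    (LQ_gen : ∀ (_ : 2 ≤ m) (i j k l : Fin m) (_ : i ≠ j) (s t : F),
      S.x (Sum.inl i) (Sum.inl j) s * S.x (Sum.inl k) (Sum.inr l) t *
        (S.x (Sum.inl i) (Sum.inl j) s)⁻¹ ∈ S.Q) :
    ι g * q * (ι g)⁻¹ ∈ S.Q := by
  refine (conj_closure_aux {g : P | ∃ i j s, i ≠ j ∧ g = S.x (Sum.inl i) (Sum.inl j) s}
    {g | ∃ i j t, g = S.x (Sum.inl i) (Sum.inr j) t} ?_ (ι g) (iota_mem S A ι hι g) q hq).1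
  rintro _ ⟨i, j, s, hij, rfl⟩ _ ⟨k, l, t, rfl⟩
  have hne : (Sum.inl i : I m) ≠ Sum.inl j := fun h => hij (Sum.inl.inj h)
  refine ⟨LQ_gen hm i j k l hij s t, ?_⟩
  have := LQ_gen hm i j k l hij (-s) t
  rw [← x_neg S hm _ _ hne s, inv_inv] at this
  exact this

end hom

-- piece `cQdec`
theorem Q_dec (hm : 2 ≤ m) (L : Fin m) (q : P) (hq : q ∈ S.Q)
    (x_comm : ∀ (_ : 2 ≤ m) (a b c d : I m) (_ : a ≠ b) (_ : c ≠ d) (_ : b ≠ c) (_ : a ≠ d)
      (_ : b ≠ ng d) (_ : a ≠ ng c) (s t : F), Commute (S.x a b s) (S.x c d t)) :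
    ∃ c, ∃ q' ∈ S.Q' L, q = S.x (Sum.inl L) (Sum.inr L) c * q' := by
  have hne : (Sum.inl L : I m) ≠ Sum.inr L := by simp
  have hcomm : ∀ (c : F) (q' : P), q' ∈ S.Q' L → Commute q' (S.x (Sum.inl L) (Sum.inr L) c) := by
    intro c q' hq'
    unfold CSys.Q' at hq'
    induction hq' using Subgroup.closure_induction with
    | mem y hy =>
      obtain ⟨i, j, t, _, rfl⟩ := hy
      exact x_comm hm _ _ _ _ (by simp) (by simp) (by simp) (by simp) (by simp [ng]) (by simp [ng]) t c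
    | one => exact Commute.one_left _
    | mul a b _ _ iha ihb => exact iha.mul_left ihb
    | inv a _ iha => exact iha.inv_left
  unfold CSys.Q at hq
  induction hq using Subgroup.closure_induction with
  | mem y hy =>
    obtain ⟨i, j, t, rfl⟩ := hy
    by_cases h : (i, j) = (L, L)
    · obtain ⟨rfl, rfl⟩ := Prod.mk.inj h
      exact ⟨t, 1, Subgroup.one_mem _, by simp⟩
    · exact ⟨0, _, Subgroup.subset_closure ⟨i, j, t, h, rfl⟩, by rw [x_zero S hm _ _ hne, one_mul]⟩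
  | one => exact ⟨0, 1, Subgroup.one_mem _, by rw [x_zero S hm _ _ hne, one_mul]⟩
  | mul a b _ _ iha ihb =>
    obtain ⟨c1, q1, hq1, rfl⟩ := iha
    obtain ⟨c2, q2, hq2, rfl⟩ := ihb
    refine ⟨c1 + c2, q1 * q2, Subgroup.mul_mem _ hq1 hq2, ?_⟩
    rw [x_add S hm _ _ hne]
    calc S.x (Sum.inl L) (Sum.inr L) c1 * q1 * (S.x (Sum.inl L) (Sum.inr L) c2 * q2)
        = S.x (Sum.inl L) (Sum.inr L) c1 * (q1 * S.x (Sum.inl L) (Sum.inr L) c2) * q2 := by group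
      _ = S.x (Sum.inl L) (Sum.inr L) c1 * (S.x (Sum.inl L) (Sum.inr L) c2 * q1) * q2 := by
          rw [(hcomm c2 q1 hq1).eq]
      _ = _ := by group
  | inv a _ iha =>
    obtain ⟨c, q', hq', rfl⟩ := iha
    refine ⟨-c, q'⁻¹, Subgroup.inv_mem _ hq', ?_⟩
    rw [_root_.mul_inv_rev, x_neg S hm _ _ hne]
    exact ((hcomm (-c) q' hq').inv_left).eq

end Cfsg.Agent.Lib.Helper54SpcLQn
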