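import Cfsg.Agent.Lib.Helper54Spcsimple

set_option autoImplicit false

namespace Cfsg.Agent.Lib.Helper54Spcnact

open Matrix Cfsg.Agent.Lib.Helper43St Cfsg.Agent.Lib.Helper43Sp Cfsg.Agent.Lib.Helper54Spcsimple

variable {m : ℕ} {F : Type*} [Field F] {P : Type*} [Group P] (S : CSys m F P)

/-- two-sided form -/
theorem n_act2 (hm : 2 ≤ m) (ν : P) (hν : ν ∈ S.N)
    (w_short : ∀ (i j : Fin m) (_ : i ≠ j) (c d : I m) (_ : c ≠ d) (t : F),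
      (∃ t', S.w (Sum.inl i) (Sum.inl j) 1 * S.x c d t * (S.w (Sum.inl i) (Sum.inl j) 1)⁻¹ =
        S.x (sw (Sum.inl i) (Sum.inl j) c) (sw (Sum.inl i) (Sum.inl j) d) t') ∧
      (∃ t', (S.w (Sum.inl i) (Sum.inl j) 1)⁻¹ * S.x c d t * S.w (Sum.inl i) (Sum.inl j) 1 =
        S.x (sw (Sum.inl i) (Sum.inl j) c) (sw (Sum.inl i) (Sum.inl j) d) t'))
    (w_long : ∀ (_ : 2 ≤ m) (i : Fin m) (c d : I m) (_ : c ≠ d) (t : F),
      (∃ t', S.w (Sum.inl i) (Sum.inr i) 1 * S.x c d t * (S.w (Sum.inl i) (Sum.inr i) 1)⁻¹ =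
        S.x (sw (Sum.inl i) (Sum.inr i) c) (sw (Sum.inl i) (Sum.inr i) d) t') ∧
      (∃ t', (S.w (Sum.inl i) (Sum.inr i) 1)⁻¹ * S.x c d t * S.w (Sum.inl i) (Sum.inr i) 1 =
        S.x (sw (Sum.inl i) (Sum.inr i) c) (sw (Sum.inl i) (Sum.inr i) d) t')) :
    (∃ σ : Equiv.Perm (I m), ∀ c d t, c ≠ d → ∃ t', ν * S.x c d t * ν⁻¹ = S.x (σ c) (σ d) t') ∧
    (∃ σ : Equiv.Perm (I m), ∀ c d t, c ≠ d → ∃ t', ν⁻¹ * S.x c d t * ν = S.x (σ c) (σ d) t') := by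
  unfold CSys.N at hν
  induction hν using Subgroup.closure_induction with
  | mem ν hν =>
    obtain ⟨a, b, hab, rfl⟩ := hν
    rcases simple_cases a b hab with ⟨i, j, hij, rfl, rfl⟩ | ⟨L, hL, rfl, rfl⟩
    · have hij' : i ≠ j := fun h => by rw [h] at hij; omega
      exact ⟨⟨_, fun c d t hcd => (w_short i j hij' c d hcd t).1⟩,
        ⟨_, fun c d t hcd => (w_short i j hij' c d hcd t).2⟩⟩
    · exact ⟨⟨_, fun c d t hcd => (w_long hm L c d hcd t).1⟩,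
        ⟨_, fun c d t hcd => (w_long hm L c d hcd t).2⟩⟩
  | one => exact ⟨⟨1, fun c d t _ => ⟨t, by simp⟩⟩, ⟨1, fun c d t _ => ⟨t, by simp⟩⟩⟩
  | mul a b _ _ iha ihb =>
    obtain ⟨⟨σa, ha⟩, ⟨τa, ha'⟩⟩ := iha
    obtain ⟨⟨σb, hb⟩, ⟨τb, hb'⟩⟩ := ihb
    refine ⟨⟨σa * σb, fun c d t hcd => ?_⟩, ⟨τb * τa, fun c d t hcd => ?_⟩⟩
    · obtain ⟨t1, h1⟩ := hb c d t hcd
      obtain ⟨t2, h2⟩ := ha (σb c) (σb d) t1 (σb.injective.ne hcd)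
      refine ⟨t2, ?_⟩
      rw [Equiv.Perm.mul_apply, Equiv.Perm.mul_apply, ← h2, ← h1]
      group
    · obtain ⟨t1, h1⟩ := ha' c d t hcd
      obtain ⟨t2, h2⟩ := hb' (τa c) (τa d) t1 (τa.injective.ne hcd)
      refine ⟨t2, ?_⟩
      rw [Equiv.Perm.mul_apply, Equiv.Perm.mul_apply, ← h2, ← h1]
      group
  | inv a _ iha =>
    obtain ⟨h1, ⟨τ, h2⟩⟩ := iha
    exact ⟨⟨τ, fun c d t hcd => by simpa using h2 c d t hcd⟩, by simpa using h1⟩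

-- piece `cnact`
theorem n_act (hm : 2 ≤ m) (ν : P) (hν : ν ∈ S.N)
    (w_short : ∀ (i j : Fin m) (_ : i ≠ j) (c d : I m) (_ : c ≠ d) (t : F),
      (∃ t', S.w (Sum.inl i) (Sum.inl j) 1 * S.x c d t * (S.w (Sum.inl i) (Sum.inl j) 1)⁻¹ =
        S.x (sw (Sum.inl i) (Sum.inl j) c) (sw (Sum.inl i) (Sum.inl j) d) t') ∧
      (∃ t', (S.w (Sum.inl i) (Sum.inl j) 1)⁻¹ * S.x c d t * S.w (Sum.inl i) (Sum.inl j) 1 =
        S.x (sw (Sum.inl i) (Sum.inl j) c) (sw (Sum.inl i) (Sum.inl j) d) t'))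
    (w_long : ∀ (_ : 2 ≤ m) (i : Fin m) (c d : I m) (_ : c ≠ d) (t : F),
      (∃ t', S.w (Sum.inl i) (Sum.inr i) 1 * S.x c d t * (S.w (Sum.inl i) (Sum.inr i) 1)⁻¹ =
        S.x (sw (Sum.inl i) (Sum.inr i) c) (sw (Sum.inl i) (Sum.inr i) d) t') ∧
      (∃ t', (S.w (Sum.inl i) (Sum.inr i) 1)⁻¹ * S.x c d t * S.w (Sum.inl i) (Sum.inr i) 1 =
        S.x (sw (Sum.inl i) (Sum.inr i) c) (sw (Sum.inl i) (Sum.inr i) d) t')) :
    ∃ σ : Equiv.Perm (I m), ∀ c d t, c ≠ d → ∃ t', ν * S.x c d t * ν⁻¹ = S.x (σ c) (σ d) t' :=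
  (n_act2 S hm ν hν w_short w_long).1

/-- a subgroup `K` normalised (both ways) on generators of `H` by the generators of `N` -/
theorem conj_closure_aux {G : Type*} [Group G] (X Y : Set G)
    (h : ∀ n ∈ X, ∀ y ∈ Y, n * y * n⁻¹ ∈ Subgroup.closure Y ∧ n⁻¹ * y * n ∈ Subgroup.closure Y)
    (ν : G) (hν : ν ∈ Subgroup.closure X) (η : G) (hη : η ∈ Subgroup.closure Y) :
    ν * η * ν⁻¹ ∈ Subgroup.closure Y ∧ ν⁻¹ * η * ν ∈ Subgroup.closure Y := by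
  have step : ∀ n : G, (∀ y ∈ Y, n * y * n⁻¹ ∈ Subgroup.closure Y) →
      ∀ η ∈ Subgroup.closure Y, n * η * n⁻¹ ∈ Subgroup.closure Y := by
    intro n hn η hη
    induction hη using Subgroup.closure_induction with
    | mem y hy => exact hn y hy
    | one => simp
    | mul a b _ _ iha ihb =>
      have : n * (a * b) * n⁻¹ = (n * a * n⁻¹) * (n * b * n⁻¹) := by group
      rw [this]; exact Subgroup.mul_mem _ iha ihb
    | inv a _ iha =>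
      have : n * a⁻¹ * n⁻¹ = (n * a * n⁻¹)⁻¹ := by group
      rw [this]; exact Subgroup.inv_mem _ iha
  revert η
  induction hν using Subgroup.closure_induction with
  | mem n hn =>
    intro η hη
    refine ⟨step n (fun y hy => (h n hn y hy).1) η hη, ?_⟩
    have := step n⁻¹ (fun y hy => by simpa using (h n hn y hy).2) η hη
    simpa using this
  | one => intro η hη; simpa using hη
  | mul a b _ _ iha ihb =>
    intro η hη
    constructor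
    · have : a * b * η * (a * b)⁻¹ = a * (b * η * b⁻¹) * a⁻¹ := by group
      rw [this]; exact (iha _ (ihb η hη).1).1
    · have : (a * b)⁻¹ * η * (a * b) = b⁻¹ * (a⁻¹ * η * a) * b := by group
      rw [this]; exact (ihb _ (iha η hη).2).2
  | inv a _ iha =>
    intro η hη
    exact ⟨by simpa using (iha η hη).2, by simpa using (iha η hη).1⟩

-- piece `cnH`
theorem n_H (hm : 2 ≤ m) (ν : P) (hν : ν ∈ S.N) (η : P) (hη : η ∈ S.H)
    (w_hl : ∀ (_ : 2 ≤ m) (a b : I m) (_ : Simple a b) (k : Fin m) (u : F) (_ : u ≠ 0),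
      S.w a b 1 * S.hl k u * (S.w a b 1)⁻¹ ∈ S.H ∧ (S.w a b 1)⁻¹ * S.hl k u * S.w a b 1 ∈ S.H) :
    ν * η * ν⁻¹ ∈ S.H := by
  refine (conj_closure_aux {g | ∃ a b, Simple a b ∧ g = S.w a b 1}
    {g | ∃ i u, u ≠ 0 ∧ g = S.hl i u} ?_ ν hν η hη).1
  rintro _ ⟨a, b, hab, rfl⟩ _ ⟨k, u, hu, rfl⟩
  exact w_hl hm a b hab k u hu

-- piece `chU`
theorem h_U (hm : 2 ≤ m) (η : P) (hη : η ∈ S.H) (y : P) (hy : y ∈ S.U)
    (h_act : ∀ (_ : 2 ≤ m) (i : Fin m) (u : F) (_ : u ≠ 0) (c d : I m) (_ : c ≠ d) (t : F),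
      ∃ t', S.hl i u * S.x c d t * (S.hl i u)⁻¹ = S.x c d t')
    (h_act_inv : ∀ (_ : 2 ≤ m) (i : Fin m) (u : F) (_ : u ≠ 0) (c d : I m) (_ : c ≠ d) (t : F),
      ∃ t', (S.hl i u)⁻¹ * S.x c d t * S.hl i u = S.x c d t') :
    η * y * η⁻¹ ∈ S.U := by
  refine (conj_closure_aux {g | ∃ i u, u ≠ 0 ∧ g = S.hl i u}
    {g | ∃ a b t, rk a < rk b ∧ g = S.x a b t} ?_ η hη y hy).1
  rintro _ ⟨i, u, hu, rfl⟩ _ ⟨a, b, t, hab, rfl⟩
  have hne : a ≠ b := fun h => by rw [h] at hab; omega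
  obtain ⟨t1, h1⟩ := h_act hm i u hu a b hne t
  obtain ⟨t2, h2⟩ := h_act_inv hm i u hu a b hne t
  rw [h1, h2]
  exact ⟨Subgroup.subset_closure ⟨a, b, t1, hab, rfl⟩, Subgroup.subset_closure ⟨a, b, t2, hab, rfl⟩⟩

end Cfsg.Agent.Lib.Helper54Spcnact
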