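import Cfsg.Agent.Lib.Helper43SpDefs

set_option autoImplicit false

namespace Cfsg.Agent.Lib.Helper54SpcwS

open Matrix Cfsg.Agent.Lib.Helper43St Cfsg.Agent.Lib.Helper43Sp

variable {m : ℕ} {F : Type*} [Field F] {P : Type*} [Group P] (S : CSys m F P)

theorem sw_short_fix (i j : Fin m) (c : I m) (h1 : ab c ≠ i) (h2 : ab c ≠ j) :
    sw (Sum.inl i) (Sum.inl j) c = c := by
  have hne : (Sum.inl j : I m) ≠ ng (Sum.inl i) := by simp [ng]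
  unfold sw
  rw [if_neg hne]
  rcases c with c | c
  · simp only [ab, Sum.elim_inl, id] at h1 h2
    simp [ng, Equiv.swap_apply_of_ne_of_ne, h1, h2]
  · simp only [ab, Sum.elim_inr, id] at h1 h2
    simp [ng, Equiv.swap_apply_of_ne_of_ne, h1, h2]

-- piece `cwS`
theorem w_short (i j : Fin m) (hij : i ≠ j) (c d : I m) (hcd : c ≠ d) (t : F)
    (w_short_dis : ∀ (i j : Fin m) (_ : i ≠ j) (c d : I m) (_ : c ≠ d)
      (_ : ab c ≠ i) (_ : ab c ≠ j) (_ : ab d ≠ i) (_ : ab d ≠ j) (t : F),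
      Commute (S.w (Sum.inl i) (Sum.inl j) 1) (S.x c d t))
    (w_short_quad : ∀ (i j : Fin m) (_ : i ≠ j) (c d : I m) (_ : c ≠ d)
      (_ : ab c = i ∨ ab c = j) (_ : ab d = i ∨ ab d = j) (t : F),
      (∃ t', S.w (Sum.inl i) (Sum.inl j) 1 * S.x c d t * (S.w (Sum.inl i) (Sum.inl j) 1)⁻¹ =
        S.x (sw (Sum.inl i) (Sum.inl j) c) (sw (Sum.inl i) (Sum.inl j) d) t') ∧
      (∃ t', (S.w (Sum.inl i) (Sum.inl j) 1)⁻¹ * S.x c d t * S.w (Sum.inl i) (Sum.inl j) 1 =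
        S.x (sw (Sum.inl i) (Sum.inl j) c) (sw (Sum.inl i) (Sum.inl j) d) t'))
    (w_short_tri : ∀ (i j : Fin m) (_ : i ≠ j) (c d : I m)
      (_ : ((ab c = i ∨ ab c = j) ∧ ab d ≠ i ∧ ab d ≠ j) ∨
        ((ab d = i ∨ ab d = j) ∧ ab c ≠ i ∧ ab c ≠ j)) (t : F),
      (∃ t', S.w (Sum.inl i) (Sum.inl j) 1 * S.x c d t * (S.w (Sum.inl i) (Sum.inl j) 1)⁻¹ =
        S.x (sw (Sum.inl i) (Sum.inl j) c) (sw (Sum.inl i) (Sum.inl j) d) t') ∧
      (∃ t', (S.w (Sum.inl i) (Sum.inl j) 1)⁻¹ * S.x c d t * S.w (Sum.inl i) (Sum.inl j) 1 =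
        S.x (sw (Sum.inl i) (Sum.inl j) c) (sw (Sum.inl i) (Sum.inl j) d) t')) :
    (∃ t', S.w (Sum.inl i) (Sum.inl j) 1 * S.x c d t * (S.w (Sum.inl i) (Sum.inl j) 1)⁻¹ =
      S.x (sw (Sum.inl i) (Sum.inl j) c) (sw (Sum.inl i) (Sum.inl j) d) t') ∧
    (∃ t', (S.w (Sum.inl i) (Sum.inl j) 1)⁻¹ * S.x c d t * S.w (Sum.inl i) (Sum.inl j) 1 =
      S.x (sw (Sum.inl i) (Sum.inl j) c) (sw (Sum.inl i) (Sum.inl j) d) t') := by
  by_cases hc : ab c = i ∨ ab c = j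
  · by_cases hd : ab d = i ∨ ab d = j
    · exact w_short_quad i j hij c d hcd hc hd t
    · push Not at hd
      exact w_short_tri i j hij c d (Or.inl ⟨hc, hd.1, hd.2⟩) t
  · push Not at hc
    by_cases hd : ab d = i ∨ ab d = j
    · exact w_short_tri i j hij c d (Or.inr ⟨hd, hc.1, hc.2⟩) t
    · push Not at hd
      have hcom := w_short_dis i j hij c d hcd hc.1 hc.2 hd.1 hd.2 t
      rw [sw_short_fix i j c hc.1 hc.2, sw_short_fix i j d hd.1 hd.2]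
      refine ⟨⟨t, ?_⟩, ⟨t, ?_⟩⟩
      · rw [hcom.eq, mul_inv_cancel_right]
      · rw [mul_assoc, ← hcom.eq, inv_mul_cancel_left]

end Cfsg.Agent.Lib.Helper54SpcwS
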