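import Cfsg.Agent.Lib.Helper43SpDefs2

set_option autoImplicit false

namespace Cfsg.Agent.Lib.Helper54Spehat

open Matrix Cfsg.Agent.Lib.Helper43BP Cfsg.Agent.Lib.Helper43St Cfsg.Agent.Lib.Helper43Sp

-- piece `ehat`
theorem exists_hat {n : ℕ} {P : Type*} [Group P] (τ : Equiv.Perm (Fin n)) (hτ : Equiv.Perm.sign τ = -1)
    (hτ2 : τ * τ = 1) (θ0 : ↥(alternatingGroup (Fin n)) →* P) (s : P) (hs : s * s = 1)
    (h : ∀ (a : ↥(alternatingGroup (Fin n))) (ha : τ * a.1 * τ ∈ alternatingGroup (Fin n)),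
      s * θ0 a * s⁻¹ = θ0 ⟨τ * a.1 * τ, ha⟩) :
    ∃ θ : Equiv.Perm (Fin n) →* P, (∀ a : ↥(alternatingGroup (Fin n)), θ a.1 = θ0 a) ∧ θ τ = s := by
  classical
  -- `A σ = θ0 σ` for even `σ`
  let A : Equiv.Perm (Fin n) → P := fun σ =>
    if hσ : σ ∈ alternatingGroup (Fin n) then θ0 ⟨σ, hσ⟩ else 1
  have A_ev : ∀ (σ : Equiv.Perm (Fin n)) (hσ : σ ∈ alternatingGroup (Fin n)), A σ = θ0 ⟨σ, hσ⟩ :=
    fun σ hσ => dif_pos hσ
  have A_mul : ∀ σ ρ : Equiv.Perm (Fin n), σ ∈ alternatingGroup (Fin n) →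
      ρ ∈ alternatingGroup (Fin n) → A (σ * ρ) = A σ * A ρ := by
    intro σ ρ hσ hρ
    rw [A_ev σ hσ, A_ev ρ hρ, A_ev _ (Subgroup.mul_mem _ hσ hρ), ← map_mul]
    rfl
  have ev : ∀ σ : Equiv.Perm (Fin n), σ ∈ alternatingGroup (Fin n) ↔ Equiv.Perm.sign σ = 1 :=
    fun σ => Equiv.Perm.mem_alternatingGroup
  have odd : ∀ σ : Equiv.Perm (Fin n), σ ∉ alternatingGroup (Fin n) → Equiv.Perm.sign σ = -1 := by
    intro σ hσ
    rcases Int.units_eq_one_or (Equiv.Perm.sign σ) with h1 | h1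
    · exact absurd ((ev σ).2 h1) hσ
    · exact h1
  have oddτ : ∀ σ : Equiv.Perm (Fin n), σ ∉ alternatingGroup (Fin n) →
      σ * τ ∈ alternatingGroup (Fin n) := by
    intro σ hσ
    rw [ev, map_mul, odd σ hσ, hτ]; simp
  have A_conj : ∀ σ : Equiv.Perm (Fin n), σ ∈ alternatingGroup (Fin n) →
      s * A σ = A (τ * σ * τ) * s := by
    intro σ hσ
    have h1 : τ * σ * τ ∈ alternatingGroup (Fin n) := by
      rw [ev, map_mul, map_mul, hτ, (ev σ).1 hσ]; simp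
    have h2 := h ⟨σ, hσ⟩ h1
    rw [A_ev σ hσ, A_ev _ h1, ← h2]
    group
  let f : Equiv.Perm (Fin n) → P := fun σ =>
    if σ ∈ alternatingGroup (Fin n) then A σ else A (σ * τ) * s
  have f_ev : ∀ σ, σ ∈ alternatingGroup (Fin n) → f σ = A σ := fun σ hσ => if_pos hσ
  have f_odd : ∀ σ, σ ∉ alternatingGroup (Fin n) → f σ = A (σ * τ) * s := fun σ hσ => if_neg hσ
  have f_mul : ∀ σ ρ, f (σ * ρ) = f σ * f ρ := by
    intro σ ρ
    by_cases hσ : σ ∈ alternatingGroup (Fin n) <;> by_cases hρ : ρ ∈ alternatingGroup (Fin n)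
    · rw [f_ev σ hσ, f_ev ρ hρ, f_ev _ (Subgroup.mul_mem _ hσ hρ), A_mul σ ρ hσ hρ]
    · have h1 : σ * ρ ∉ alternatingGroup (Fin n) := by
        rw [ev, map_mul, (ev σ).1 hσ, odd ρ hρ]; decide
      rw [f_ev σ hσ, f_odd ρ hρ, f_odd _ h1, mul_assoc σ ρ τ, A_mul σ _ hσ (oddτ ρ hρ), mul_assoc]
    · have h1 : σ * ρ ∉ alternatingGroup (Fin n) := by
        rw [ev, map_mul, (ev ρ).1 hρ, odd σ hσ]; decide
      have h2 : τ * ρ * τ ∈ alternatingGroup (Fin n) := by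
        rw [ev, map_mul, map_mul, hτ, (ev ρ).1 hρ]; simp
      rw [f_odd σ hσ, f_ev ρ hρ, f_odd _ h1, mul_assoc (A (σ * τ)), A_conj ρ hρ, ← mul_assoc,
        ← A_mul _ _ (oddτ σ hσ) h2]
      congr 2
      calc σ * ρ * τ = σ * (τ * τ) * ρ * τ := by rw [hτ2, mul_one]
        _ = σ * τ * (τ * ρ * τ) := by group
    · have h1 : σ * ρ ∈ alternatingGroup (Fin n) := by
        rw [ev, map_mul, odd ρ hρ, odd σ hσ]; decide
      have h2 : τ * (ρ * τ) * τ ∈ alternatingGroup (Fin n) := by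
        rw [ev, map_mul, map_mul, map_mul, hτ, odd ρ hρ]; decide
      rw [f_odd σ hσ, f_odd ρ hρ, f_ev _ h1]
      calc A (σ * ρ) = A (σ * τ * (τ * (ρ * τ) * τ)) := by
            congr 1
            calc σ * ρ = σ * (τ * τ) * ρ * (τ * τ) := by rw [hτ2, mul_one, mul_one]
              _ = σ * τ * (τ * (ρ * τ) * τ) := by group
        _ = A (σ * τ) * A (τ * (ρ * τ) * τ) := A_mul _ _ (oddτ σ hσ) h2
        _ = A (σ * τ) * (A (τ * (ρ * τ) * τ) * s) * s := by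
            rw [mul_assoc (A (σ * τ)), mul_assoc (A (τ * (ρ * τ) * τ)), hs, mul_one]
        _ = A (σ * τ) * (s * A (ρ * τ)) * s := by rw [A_conj _ (oddτ ρ hρ)]
        _ = A (σ * τ) * s * (A (ρ * τ) * s) := by group
  refine ⟨MonoidHom.mk' f f_mul, fun a => ?_, ?_⟩
  · show f a.1 = θ0 a
    rw [f_ev a.1 a.2, A_ev a.1 a.2]
  · show f τ = s
    have hτo : τ ∉ alternatingGroup (Fin n) := by rw [ev, hτ]; decide
    rw [f_odd τ hτo, hτ2, A_ev 1 (Subgroup.one_mem _)]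
    have : (⟨1, Subgroup.one_mem _⟩ : ↥(alternatingGroup (Fin n))) = 1 := rfl
    rw [this, map_one, one_mul]

end Cfsg.Agent.Lib.Helper54Spehat
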