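import Cfsg.Prelude.Def_SylowChains
import Cfsg.Agent.Lib.Helper40Sylow
import Mathlib.Logic.Relation

set_option autoImplicit false

/-! Control of Sylow intersections, reformulated on the level of subgroups of the ambient group with
`Relation.ReflTransGen`. -/

namespace Cfsg.Agent.Lib.Helper55Control

open Cfsg Cfsg.Agent.Lib.Helper40Sylow Relation

section chains
variable {α : Type*} {r : α → α → Prop}

theorem reflTransGen_of_chain : ∀ (n : ℕ) (c : Fin (n + 1) → α),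
    (∀ i : Fin n, r (c i.castSucc) (c i.succ)) → ReflTransGen r (c 0) (c (Fin.last n))
  | 0, _, _ => ReflTransGen.refl
  | n + 1, c, h => by
    have h1 := reflTransGen_of_chain n (fun i => c i.castSucc) (fun i => h i.castSucc)
    exact h1.tail (h (Fin.last n))

theorem exists_chain_of_reflTransGen {a b : α} (h : ReflTransGen r a b) :
    ∃ (n : ℕ) (c : Fin (n + 1) → α), c 0 = a ∧ c (Fin.last n) = b ∧
      ∀ i : Fin n, r (c i.castSucc) (c i.succ) := by
  induction h with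
  | refl => exact ⟨0, fun _ => a, rfl, rfl, fun i => i.elim0⟩
  | @tail b' c' _ hbc ih =>
    obtain ⟨n, c, h0, hl, hc⟩ := ih
    refine ⟨n + 1, Fin.snoc (α := fun _ => α) c c', ?_, ?_, ?_⟩
    · have : (0 : Fin (n + 2)) = (0 : Fin (n + 1)).castSucc := rfl
      rw [this, Fin.snoc_castSucc]; exact h0
    · exact Fin.snoc_last (α := fun _ => α) _ _
    · intro i
      refine Fin.lastCases ?_ (fun j => ?_) i
      · rw [Fin.snoc_castSucc, Fin.succ_last, Fin.snoc_last, hl]; exact hbc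
      · rw [Fin.snoc_castSucc, Fin.succ_castSucc, Fin.snoc_castSucc]; exact hc j

theorem reflTransGen_of_invariant {r' : α → α → Prop} {I : α → Prop}
    (h : ∀ a b, I a → r a b → I b ∧ r' a b) {a b : α} (ha : I a) (hab : ReflTransGen r a b) :
    I b ∧ ReflTransGen r' a b := by
  induction hab with
  | refl => exact ⟨ha, ReflTransGen.refl⟩
  | tail _ hbc ih => exact ⟨(h _ _ ih.1 hbc).1, ih.2.tail (h _ _ ih.1 hbc).2⟩

end chains

variable {G : Type*} [Group G]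

theorem isSylowIn_map {H : Type*} [Group H] {p : ℕ} {f : G →* H} (hf : Function.Injective f)
    {A B : Subgroup G} : IsSylowIn p (A.map f) (B.map f) ↔ IsSylowIn p A B := by
  unfold IsSylowIn
  rw [Subgroup.map_le_map_iff_of_injective hf, Subgroup.relIndex_map_map_of_injective A B hf]
  constructor
  · rintro ⟨h1, h2, h3⟩
    exact ⟨h1, h2.of_equiv (A.equivMapOfInjective f hf).symm, h3⟩
  · rintro ⟨h1, h2, h3⟩
    exact ⟨h1, h2.map f, h3⟩

theorem isSylowIn_subgroupOf {p : ℕ} {M A B : Subgroup G} (hA : A ≤ M) (hB : B ≤ M) :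
    IsSylowIn p (A.subgroupOf M) (B.subgroupOf M) ↔ IsSylowIn p A B := by
  rw [← isSylowIn_map M.subtype_injective, Subgroup.map_subgroupOf_eq_of_le hA,
    Subgroup.map_subgroupOf_eq_of_le hB]

theorem cj_subgroupOf {M : Subgroup G} (x : M) (A : Subgroup G) :
    cj x (A.subgroupOf M) = (cj (x : G) A).subgroupOf M := by
  ext y
  rw [mem_cj, Subgroup.mem_subgroupOf, Subgroup.mem_subgroupOf, mem_cj]
  rfl

theorem cj_map_subtype {M : Subgroup G} (x : M) (A : Subgroup M) :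
    cj (x : G) (A.map M.subtype) = (cj x A).map M.subtype := by
  ext y
  rw [mem_cj]
  constructor
  · rintro ⟨a, ha, hay⟩
    refine ⟨x * a * x⁻¹, conj_mem_cj ha, ?_⟩
    have : (a : G) = (x : G)⁻¹ * y * x := hay
    simp only [Subgroup.subtype_apply, Subgroup.coe_mul, Subgroup.coe_inv, this]
    group
  · rintro ⟨a, ha, rfl⟩
    have ha' : a ∈ cj x A := ha
    rw [mem_cj] at ha'
    exact ⟨_, ha', rfl⟩

theorem exists_sylow_of_isSylowIn_top {p : ℕ} [Fact p.Prime] {S : Subgroup G} (h : IsSylowIn p S ⊤) :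
    ∃ S' : Sylow p G, (S' : Subgroup G) = S := by
  have h2 := h.2.2
  rw [Subgroup.relIndex_top_right] at h2
  exact ⟨h.2.1.toSylow h2, rfl⟩

theorem mem_sylowMembers_iff [Finite G] {p : ℕ} [Fact p.Prime] {𝓕 : Set (Subgroup G)} {S X : Subgroup G} :
    X ∈ sylowMembers p 𝓕 S ↔ X ∈ 𝓕 ∧ IsSylowIn p (S ⊓ X) X := by
  constructor
  · rintro ⟨hX, P, hP⟩
    refine ⟨hX, ?_⟩
    rw [← hP]; exact isSylowIn_of_sylow P
  · rintro ⟨hX, h⟩
    refine ⟨hX, h.toSylow, ?_⟩
    rw [h.coe_toSylow, Subgroup.map_subgroupOf_eq_of_le inf_le_right]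

/-- One step of a chain. -/
def Step (p : ℕ) (𝓕 : Set (Subgroup G)) (D S₀ S₁ : Subgroup G) : Prop :=
  IsPGroup p S₀ ∧ ∃ X ∈ 𝓕, ∃ x ∈ X, IsSylowIn p (S₀ ⊓ X) X ∧ cj x S₀ = S₁ ∧ D ≤ S₁ ⊓ X

/-- Two subgroups are linked by a chain. -/
def Linked (p : ℕ) (𝓕 : Set (Subgroup G)) (D : Subgroup G) : Subgroup G → Subgroup G → Prop :=
  ReflTransGen (Step p 𝓕 D)

/-- The family `𝓕` controls Sylow intersections in the subgroup `M`. -/
def ControlsIn (p : ℕ) (M : Subgroup G) (𝓕 : Set (Subgroup G)) : Prop :=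
  ∀ S T : Subgroup G, IsSylowIn p S M → IsSylowIn p T M → S ≠ T → S ⊓ T ≠ ⊥ → Linked p 𝓕 (S ⊓ T) S T

theorem isSylowIn_inf_cj {p : ℕ} {S X : Subgroup G} {x : G} (hx : x ∈ X) (h : IsSylowIn p (S ⊓ X) X) :
    IsSylowIn p (cj x S ⊓ X) X := by
  have := h.cj x
  rwa [cj_inf, cj_eq_self_of_mem hx] at this

theorem Step.mono_D {p : ℕ} {𝓕 : Set (Subgroup G)} {D D' S₀ S₁ : Subgroup G} (h : D' ≤ D)
    (hs : Step p 𝓕 D S₀ S₁) : Step p 𝓕 D' S₀ S₁ := by
  obtain ⟨h0, X, hX, x, hx, h1, h2, h3⟩ := hs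
  exact ⟨h0, X, hX, x, hx, h1, h2, h.trans h3⟩

theorem Step.mono_F {p : ℕ} {𝓕 𝓕' : Set (Subgroup G)} {D S₀ S₁ : Subgroup G} (h : 𝓕 ⊆ 𝓕')
    (hs : Step p 𝓕 D S₀ S₁) : Step p 𝓕' D S₀ S₁ := by
  obtain ⟨h0, X, hX, x, hx, h1, h2, h3⟩ := hs
  exact ⟨h0, X, h hX, x, hx, h1, h2, h3⟩

theorem Step.cj {p : ℕ} {𝓕 : Set (Subgroup G)} {D S₀ S₁ : Subgroup G} (g : G)
    (h𝓕 : ∀ X ∈ 𝓕, Helper40Sylow.cj g X ∈ 𝓕) (hs : Step p 𝓕 D S₀ S₁) :
    Step p 𝓕 (Helper40Sylow.cj g D) (Helper40Sylow.cj g S₀) (Helper40Sylow.cj g S₁) := by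
  obtain ⟨h0, X, hX, x, hx, h1, h2, h3⟩ := hs
  refine ⟨isPGroup_cj h0 g, _, h𝓕 X hX, g * x * g⁻¹, conj_mem_cj hx, ?_, ?_, ?_⟩
  · rw [← cj_inf]; exact h1.cj g
  · rw [← h2, ← cj_mul, ← cj_mul]
    congr 1
    group
  · rw [← cj_inf]; exact cj_mono h3

theorem Linked.mono_D {p : ℕ} {𝓕 : Set (Subgroup G)} {D D' S T : Subgroup G} (h : D' ≤ D)
    (hs : Linked p 𝓕 D S T) : Linked p 𝓕 D' S T :=
  ReflTransGen.mono (fun _ _ => Step.mono_D h) _ _ hs

theorem Linked.mono_F {p : ℕ} {𝓕 𝓕' : Set (Subgroup G)} {D S T : Subgroup G} (h : 𝓕 ⊆ 𝓕')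
    (hs : Linked p 𝓕 D S T) : Linked p 𝓕' D S T :=
  ReflTransGen.mono (fun _ _ => Step.mono_F h) _ _ hs

theorem Linked.cj {p : ℕ} {𝓕 : Set (Subgroup G)} {D S T : Subgroup G} (g : G)
    (h𝓕 : ∀ X ∈ 𝓕, Helper40Sylow.cj g X ∈ 𝓕) (hs : Linked p 𝓕 D S T) :
    Linked p 𝓕 (Helper40Sylow.cj g D) (Helper40Sylow.cj g S) (Helper40Sylow.cj g T) :=
  ReflTransGen.lift (Helper40Sylow.cj g) (fun _ _ => Step.cj g h𝓕) _ _ hs

theorem Linked.refl {p : ℕ} {𝓕 : Set (Subgroup G)} {D S : Subgroup G} : Linked p 𝓕 D S S :=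
  ReflTransGen.refl

theorem Linked.trans {p : ℕ} {𝓕 : Set (Subgroup G)} {D S T U : Subgroup G}
    (h1 : Linked p 𝓕 D S T) (h2 : Linked p 𝓕 D T U) : Linked p 𝓕 D S U :=
  ReflTransGen.trans h1 h2

theorem Step.linked {p : ℕ} {𝓕 : Set (Subgroup G)} {D S T : Subgroup G}
    (h1 : Step p 𝓕 D S T) : Linked p 𝓕 D S T :=
  ReflTransGen.single h1

/-- Along a chain with members inside `M`, Sylow subgroups of `M` stay Sylow subgroups of `M`. -/
theorem Linked.isSylowIn {p : ℕ} {𝓕 : Set (Subgroup G)} {D S T M : Subgroup G} (h𝓕 : ∀ X ∈ 𝓕, X ≤ M)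
    (hs : Linked p 𝓕 D S T) (hS : IsSylowIn p S M) : IsSylowIn p T M := by
  induction hs with
  | refl => exact hS
  | tail _ hbc ih =>
    obtain ⟨h0, X, hX, x, hx, h1, h2, h3⟩ := hbc
    have := ih.cj x
    rwa [h2, cj_eq_self_of_mem (h𝓕 X hX hx)] at this

theorem controls_iff [Finite G] {p : ℕ} [Fact p.Prime] {𝓕 : Set (Subgroup G)} :
    ControlsSylowIntersections p 𝓕 ↔ ControlsIn p ⊤ 𝓕 := by
  constructor
  · intro hc S T hS hT hne hinf
    obtain ⟨S', rfl⟩ := exists_sylow_of_isSylowIn_top hS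
    obtain ⟨T', rfl⟩ := exists_sylow_of_isSylowIn_top hT
    obtain ⟨n, c, X, x, h0, hl, hstep⟩ := hc S' T' (fun h => hne (by rw [h])) hinf
    have := reflTransGen_of_chain (r := Step p 𝓕 ((S' : Subgroup G) ⊓ (T' : Subgroup G))) n
      (fun i => (c i : Subgroup G)) (fun i => by
        obtain ⟨h1, h2, h3, h4, h5⟩ := hstep i
        refine ⟨(c i.castSucc).2, X i, h1.1, x i, h3, (mem_sylowMembers_iff.1 h1).2, ?_, h5⟩
        rw [← h4]
        exact cj_cj_inv (x i) _)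
    simp only [h0, hl] at this
    exact this
  · intro hc S T hne hinf
    have hL := hc S T (isSylowIn_top S) (isSylowIn_top T) (fun h => hne (Sylow.ext h)) hinf
    set D := (S : Subgroup G) ⊓ (T : Subgroup G) with hD
    have key : ∀ U : Subgroup G, Linked p 𝓕 D S U → ∃ U' : Sylow p G, (U' : Subgroup G) = U ∧
        ReflTransGen (fun A B : Sylow p G => Step p 𝓕 D (A : Subgroup G) (B : Subgroup G)) S U' := by
      intro U hU
      induction hU with
      | refl => exact ⟨S, rfl, ReflTransGen.refl⟩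
      | @tail b c _ hbc ih =>
        obtain ⟨B', rfl, hB'⟩ := ih
        obtain ⟨h0, X, hX, x, hx, h1, h2, h3⟩ := id hbc
        refine ⟨x • B', ?_, hB'.tail ?_⟩
        · rw [sylow_smul_eq_cj, h2]
        · rw [sylow_smul_eq_cj, h2]; exact hbc
    obtain ⟨T', hT', hchain⟩ := key T hL
    have hTT : T' = T := Sylow.ext hT'
    subst hTT
    obtain ⟨n, c, h0, hl, hc'⟩ := exists_chain_of_reflTransGen hchain
    choose _ X hX x hx h1 h2 h3 using hc'
    refine ⟨n, c, X, x, h0, hl, fun i => ⟨mem_sylowMembers_iff.2 ⟨hX i, h1 i⟩,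
      mem_sylowMembers_iff.2 ⟨hX i, ?_⟩, hx i, ?_, h3 i⟩⟩
    · rw [← h2 i]; exact isSylowIn_inf_cj (hx i) (h1 i)
    · rw [← h2 i]; exact cj_inv_cj (x i) _

theorem Step.subgroupOf {p : ℕ} {𝓕 : Set (Subgroup G)} {D S₀ S₁ M : Subgroup G} (h𝓕 : ∀ X ∈ 𝓕, X ≤ M)
    (hs : Step p 𝓕 D S₀ S₁) :
    Step p ((fun X : Subgroup G => X.subgroupOf M) '' 𝓕) (D.subgroupOf M) (S₀.subgroupOf M)
      (S₁.subgroupOf M) := by
  obtain ⟨h0, X, hX, x, hx, h1, h2, h3⟩ := hs
  refine ⟨h0.comap_subtype, _, ⟨X, hX, rfl⟩, ⟨x, h𝓕 X hX hx⟩, hx, ?_, ?_, ?_⟩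
  · have : S₀.subgroupOf M ⊓ X.subgroupOf M = (S₀ ⊓ X).subgroupOf M := rfl
    rw [this, isSylowIn_subgroupOf (inf_le_right.trans (h𝓕 X hX)) (h𝓕 X hX)]
    exact h1
  · rw [cj_subgroupOf, h2]
  · have : S₁.subgroupOf M ⊓ X.subgroupOf M = (S₁ ⊓ X).subgroupOf M := rfl
    rw [this]
    exact Subgroup.comap_mono h3

theorem Step.map_subtype {p : ℕ} {𝓕 : Set (Subgroup G)} {M : Subgroup G} {D S₀ S₁ : Subgroup M}
    (h𝓕 : ∀ X ∈ 𝓕, X ≤ M)
    (hs : Step p ((fun X : Subgroup G => X.subgroupOf M) '' 𝓕) D S₀ S₁) :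
    Step p 𝓕 (D.map M.subtype) (S₀.map M.subtype) (S₁.map M.subtype) := by
  obtain ⟨h0, _, ⟨X, hX, rfl⟩, x, hx, h1, h2, h3⟩ := hs
  have hXM := h𝓕 X hX
  have e : ∀ A : Subgroup M, A.map M.subtype ⊓ X = (A ⊓ X.subgroupOf M).map M.subtype := by
    intro A
    rw [Subgroup.map_inf _ _ _ M.subtype_injective, Subgroup.map_subgroupOf_eq_of_le hXM]
  refine ⟨h0.map _, X, hX, x, hx, ?_, ?_, ?_⟩
  · rw [e]
    have := (isSylowIn_map (p := p) M.subtype_injective).2 h1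
    rwa [Subgroup.map_subgroupOf_eq_of_le hXM] at this
  · rw [cj_map_subtype, h2]
  · rw [e]; exact Subgroup.map_mono h3

theorem controlsIn_subgroupOf_iff {p : ℕ} {𝓕 : Set (Subgroup G)} {M : Subgroup G} (h𝓕 : ∀ X ∈ 𝓕, X ≤ M) :
    ControlsIn p (⊤ : Subgroup M) ((fun X : Subgroup G => X.subgroupOf M) '' 𝓕) ↔ ControlsIn p M 𝓕 := by
  constructor
  · intro hc S T hS hT hne hinf
    have hS' : IsSylowIn p (S.subgroupOf M) (⊤ : Subgroup M) := by
      rw [← Subgroup.subgroupOf_self M, isSylowIn_subgroupOf hS.1 le_rfl]; exact hS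
    have hT' : IsSylowIn p (T.subgroupOf M) (⊤ : Subgroup M) := by
      rw [← Subgroup.subgroupOf_self M, isSylowIn_subgroupOf hT.1 le_rfl]; exact hT
    have e : S.subgroupOf M ⊓ T.subgroupOf M = (S ⊓ T).subgroupOf M := rfl
    have hL := hc _ _ hS' hT' (fun h => hne (by
      rw [← Subgroup.map_subgroupOf_eq_of_le hS.1, h, Subgroup.map_subgroupOf_eq_of_le hT.1]))
      (fun h => hinf (by
        rw [e] at h
        rw [← Subgroup.map_subgroupOf_eq_of_le (inf_le_left.trans hS.1), h, Subgroup.map_bot]))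
    have h2 : ReflTransGen (Step p 𝓕 ((S.subgroupOf M ⊓ T.subgroupOf M).map M.subtype))
        ((S.subgroupOf M).map M.subtype) ((T.subgroupOf M).map M.subtype) :=
      ReflTransGen.lift (fun A : Subgroup M => A.map M.subtype)
        (fun _ _ => Step.map_subtype h𝓕) _ _ hL
    rw [e, Subgroup.map_subgroupOf_eq_of_le hS.1, Subgroup.map_subgroupOf_eq_of_le hT.1,
      Subgroup.map_subgroupOf_eq_of_le (inf_le_left.trans hS.1 : S ⊓ T ≤ M)] at h2
    exact h2
  · intro hc S T hS hT hne hinf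
    have etop : (⊤ : Subgroup M).map M.subtype = M := by
      rw [← MonoidHom.range_eq_map, Subgroup.range_subtype]
    have hS' : IsSylowIn p (S.map M.subtype) M := by
      have := (isSylowIn_map (p := p) M.subtype_injective).2 hS
      rwa [etop] at this
    have hT' : IsSylowIn p (T.map M.subtype) M := by
      have := (isSylowIn_map (p := p) M.subtype_injective).2 hT
      rwa [etop] at this
    have e : S.map M.subtype ⊓ T.map M.subtype = (S ⊓ T).map M.subtype :=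
      (Subgroup.map_inf _ _ _ M.subtype_injective).symm
    have hL := hc _ _ hS' hT' (fun h => hne (Subgroup.map_injective M.subtype_injective h))
      (fun h => hinf (by
        rw [e] at h
        exact (Subgroup.map_eq_bot_iff_of_injective _ M.subtype_injective).1 h))
    have h2 : ReflTransGen (Step p ((fun X : Subgroup G => X.subgroupOf M) '' 𝓕)
        ((S.map M.subtype ⊓ T.map M.subtype).subgroupOf M))
        ((S.map M.subtype).subgroupOf M) ((T.map M.subtype).subgroupOf M) :=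
      ReflTransGen.lift (fun A : Subgroup G => A.subgroupOf M)
        (fun _ _ => Step.subgroupOf h𝓕) _ _ hL
    have e2 : ∀ A : Subgroup M, (A.map M.subtype).subgroupOf M = A := fun A =>
      Subgroup.comap_map_eq_self_of_injective M.subtype_injective A
    rw [e, e2, e2, e2] at h2
    exact h2

theorem functorFamily_le {p : ℕ} {f : Subgroup G → Set (Subgroup G)} {M : Subgroup G} :
    ∀ X ∈ functorFamily p f M, X ≤ M := by
  rintro X ⟨P, F, _, rfl⟩
  exact inf_le_left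

theorem isFunctorRegular_iff [Finite G] {p : ℕ} [Fact p.Prime] {f : Subgroup G → Set (Subgroup G)}
    {M : Subgroup G} : IsFunctorRegular p f M ↔ ControlsIn p M (functorFamily p f M) := by
  unfold IsFunctorRegular
  rw [controls_iff, controlsIn_subgroupOf_iff functorFamily_le]

theorem mem_functorFamily_iff [Finite G] {p : ℕ} [Fact p.Prime] {f : Subgroup G → Set (Subgroup G)}
    {M X : Subgroup G} : X ∈ functorFamily p f M ↔
      ∃ P, IsSylowIn p P M ∧ ∃ F ∈ f P, X = M ⊓ Subgroup.normalizer (F : Set G) := by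
  constructor
  · rintro ⟨P, F, hF, rfl⟩
    exact ⟨_, isSylowIn_of_sylow P, F, hF, rfl⟩
  · rintro ⟨P, hP, F, hF, rfl⟩
    refine ⟨hP.toSylow, F, ?_, rfl⟩
    rw [hP.coe_toSylow, Subgroup.map_subgroupOf_eq_of_le hP.1]
    exact hF

theorem cj_top (g : G) : cj g (⊤ : Subgroup G) = ⊤ := by
  ext x; rw [mem_cj]; simp

theorem functorFamily_cj [Finite G] {p : ℕ} [Fact p.Prime] {f : Subgroup G → Set (Subgroup G)}
    (hf : IsNormalizerFunctor p f) {M X : Subgroup G} (g : G) (hX : X ∈ functorFamily p f M) :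
    cj g X ∈ functorFamily p f (cj g M) := by
  rw [mem_functorFamily_iff] at hX ⊢
  obtain ⟨P, hP, F, hF, rfl⟩ := hX
  refine ⟨cj g P, hP.cj g, cj g F, ?_, ?_⟩
  · rw [(hf P hP.2.1).2 g]
    exact ⟨F, hF, rfl⟩
  · rw [cj_inf, normalizer_cj]

theorem functorFamily_top_cj [Finite G] {p : ℕ} [Fact p.Prime] {f : Subgroup G → Set (Subgroup G)}
    (hf : IsNormalizerFunctor p f) (g : G) : ∀ X ∈ functorFamily p f ⊤, cj g X ∈ functorFamily p f ⊤ := by
  intro X hX
  have := functorFamily_cj hf g hX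
  rwa [cj_top] at this

/-- Enlarging the group in which a subgroup is Sylow. -/
theorem isSylowIn_enlarge [Finite G] {p : ℕ} [Fact p.Prime] {A B X Y P : Subgroup G} (hA : IsSylowIn p A X)
    (hAB : A ≤ B) (hB : IsPGroup p B) (hBY : B ≤ Y) (hXY : X ≤ Y) (hP : IsSylowIn p P Y) (hPX : P ≤ X) :
    IsSylowIn p B Y := by
  have h1 : IsSylowIn p P X := hP.of_le hPX hXY
  have h2 : IsSylowIn p A Y := isSylowIn_of_card (hA.1.trans hXY) (by rw [hA.card_eq, ← h1.card_eq, hP.card_eq])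
  rw [← h2.eq_of_le hB hBY hAB]
  exact h2

theorem isSylowIn_top_of_le [Finite G] {p : ℕ} [Fact p.Prime] {S M P : Subgroup G} (hS : IsSylowIn p S ⊤)
    (hSM : S ≤ M) (hP : IsSylowIn p P M) : IsSylowIn p P ⊤ :=
  isSylowIn_of_card le_top (by rw [hP.card_eq, ← (hS.of_le hSM le_top).card_eq, hS.card_eq])

/-- If `M` contains a Sylow subgroup of `G`, steps for the family of `M` are steps for the family of `G`. -/
theorem Step.enlarge [Finite G] {p : ℕ} [Fact p.Prime] {f : Subgroup G → Set (Subgroup G)}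
    (hf : IsNormalizerFunctor p f) {S M D S₀ S₁ : Subgroup G} (hS : IsSylowIn p S ⊤) (hSM : S ≤ M)
    (hs : Step p (functorFamily p f M) D S₀ S₁) : Step p (functorFamily p f ⊤) D S₀ S₁ := by
  obtain ⟨h0, X, hX, x, hx, h1, h2, h3⟩ := hs
  rw [mem_functorFamily_iff] at hX
  obtain ⟨P, hP, F, hF, rfl⟩ := hX
  have hP' : IsSylowIn p P ⊤ := isSylowIn_top_of_le hS hSM hP
  have hPN : P ≤ Subgroup.normalizer (F : Set G) := Subgroup.le_normalizer.trans ((hf P hP.2.1).1 F hF).2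
  have hle : M ⊓ Subgroup.normalizer (F : Set G) ≤ ⊤ ⊓ Subgroup.normalizer (F : Set G) :=
    inf_le_inf_right _ le_top
  refine ⟨h0, ⊤ ⊓ Subgroup.normalizer (F : Set G), mem_functorFamily_iff.2 ⟨P, hP', F, hF, rfl⟩, x, hle hx,
    ?_, h2, h3.trans (inf_le_inf_left _ hle)⟩
  exact isSylowIn_enlarge h1 (inf_le_inf_left _ hle) (h0.to_le inf_le_left) inf_le_right hle
    (hP'.of_le (le_inf le_top hPN) le_top) (le_inf hP.1 hPN)

theorem Linked.enlarge [Finite G] {p : ℕ} [Fact p.Prime] {f : Subgroup G → Set (Subgroup G)}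
    (hf : IsNormalizerFunctor p f) {S M D S₀ S₁ : Subgroup G} (hS : IsSylowIn p S ⊤) (hSM : S ≤ M)
    (hs : Linked p (functorFamily p f M) D S₀ S₁) : Linked p (functorFamily p f ⊤) D S₀ S₁ :=
  ReflTransGen.mono (fun _ _ => Step.enlarge hf hS hSM) _ _ hs

end Cfsg.Agent.Lib.Helper55Control
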