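import Cfsg.Agent.Lib.Helper56Iso2

set_option autoImplicit false
set_option linter.unusedSectionVars false

/-! Isolated `p`-minimal subgroups: the case where the normal closure is not perfect. -/

namespace Cfsg.Agent.Lib.Helper56Iso3

open Cfsg Subgroup Cfsg.Agent.Lib.Helper40Sylow Cfsg.Agent.Lib.Helper54PMin
  Cfsg.Agent.Lib.Helper52Subnormal Cfsg.Agent.Lib.Helper56Iso Cfsg.Agent.Lib.Helper56Iso2
open scoped commutatorElement

variable {G : Type*} [Group G] [Finite G] {p : ℕ} [Fact p.Prime]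
variable {S : Sylow p G} {P L Q : Subgroup G}

theorem exists_prime_of_nilpotent (h : IsoData p S P L Q)
    (hnil : ⁅⁅normalClosure ((res p P : Subgroup G) : Set G), normalClosure ((res p P : Subgroup G) : Set G)⁆,
      normalClosure ((res p P : Subgroup G) : Set G)⁆ ≤ Cfsg.pCore p G) :
    ∃ t : ℕ, t.Prime ∧ t ≠ p ∧ ∀ y ∈ normalClosure ((res p P : Subgroup G) : Set G),
      ∃ k : ℕ, y ^ t ^ k ∈ Cfsg.pCore p G := by
  set Y := normalClosure ((res p P : Subgroup G) : Set G) with hY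
  set D := Cfsg.pCore p G with hD
  have hDn : D.Normal := Cfsg.pCore_normal p G
  set π := QuotientGroup.mk' D with hπ
  have hπs : Function.Surjective π := QuotientGroup.mk'_surjective D
  have hYn : (Y.map π).Normal := (normalClosure_normal).map π hπs
  have h3 : ⁅⁅Y.map π, Y.map π⁆, Y.map π⁆ = ⊥ := by
    rw [← map_commutator, ← map_commutator, eq_bot_iff]
    refine (map_mono hnil).trans ?_
    rintro _ ⟨d, hd, rfl⟩
    exact mem_bot.2 ((QuotientGroup.eq_one_iff d).2 hd)
  have hnilp : Group.IsNilpotent ↥(Y.map π) := isNilpotent_of_comm3 h3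
  have h4 := Cfsg.Agent.Lib.Helper28Fitting.le_iSup_pCore_of_nilpotent hYn hnilp
  by_contra hcon
  push Not at hcon
  have h5 : ∀ q : Nat.Primes, Cfsg.pCore (q : ℕ) (G ⧸ D) ≤ L.map π := by
    intro q
    by_cases hq : (q : ℕ) = p
    · rw [hq, pCore_quot_eq_bot]; exact bot_le
    · have hNn : ((Cfsg.pCore (q : ℕ) (G ⧸ D)).comap π).Normal := (Cfsg.pCore_normal _ _).comap π
      rcases h.closure_dichotomy hNn with h6 | h6
      · exfalso
        obtain ⟨y, hy, hy2⟩ := hcon q q.2 hq
        have h7 : π y ∈ Cfsg.pCore (q : ℕ) (G ⧸ D) := h6 hy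
        obtain ⟨k, hk⟩ := (Cfsg.Agent.Lib.Helper28Fitting.pCore_isPGroup (G := G ⧸ D) (q : ℕ)) ⟨_, h7⟩
        apply hy2 k
        have h8 : (π y) ^ (q : ℕ) ^ k = 1 := congrArg Subtype.val hk
        rw [← map_pow] at h8
        exact (QuotientGroup.eq_one_iff _).1 h8
      · have h7 := map_mono (f := π) h6.1
        rwa [map_comap_eq_self_of_surjective hπs] at h7
  have h6 : Y.map π ≤ L.map π := h4.trans (iSup_le h5)
  have h7 : Y ≤ L := by
    have h8 := comap_mono (f := π) h6
    rw [comap_map_eq, comap_map_eq, hπ, QuotientGroup.ker_mk'] at h8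
    refine (le_sup_left.trans h8).trans (sup_le le_rfl ?_)
    exact (IsoData.pCore_le S).trans h.hSL
  exact h.not_res_le (IsoData.res_le_closure.trans h7)

theorem inf_sup_le (h : IsoData p S P L Q) {Y : Subgroup G} (hYn : Y.Normal) :
    L ⊓ (Y ⊔ (S : Subgroup G)) ≤ (Y ⊓ L) ⊔ (S : Subgroup G) := by
  intro g hg
  obtain ⟨hgL, hgY⟩ := mem_inf.1 hg
  rw [← SetLike.mem_coe, normal_mul] at hgY
  obtain ⟨y, hy, s, hs, rfl⟩ := hgY
  have h1 : y ∈ L := by
    have := mul_mem hgL (inv_mem (h.hSL hs))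
    simpa using this
  exact mul_mem_sup (mem_inf.2 ⟨hy, h1⟩) hs

theorem eq_of_not_perfect (h : IsoData p S P L Q)
    (hnp : ¬ normalClosure ((res p P : Subgroup G) : Set G) ≤
      ⁅normalClosure ((res p P : Subgroup G) : Set G), normalClosure ((res p P : Subgroup G) : Set G)⁆) :
    res p P = normalClosure ((res p P : Subgroup G) : Set G) ∧
    ⁅⁅normalClosure ((res p P : Subgroup G) : Set G), normalClosure ((res p P : Subgroup G) : Set G)⁆,
      normalClosure ((res p P : Subgroup G) : Set G)⁆ ≤ Cfsg.pCore p G ∧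
    ∃ t : ℕ, t.Prime ∧ t ≠ p ∧ ∀ y ∈ normalClosure ((res p P : Subgroup G) : Set G),
      ∃ k : ℕ, y ^ t ^ k ∈ Cfsg.pCore p G := by
  have hex := exists_prime_of_nilpotent h
  have hRY : res p P ≤ normalClosure ((res p P : Subgroup G) : Set G) := IsoData.res_le_closure
  have hdich := @IsoData.closure_dichotomy G _ _ p _ S P L Q h
  have hnorm := @IsoData.normal_of_le_normalizer G _ _ p _ S P L Q h
  have hncl : ∀ N : Subgroup G, N.Normal → res p P ≤ N →
      normalClosure ((res p P : Subgroup G) : Set G) ≤ N := fun N hN hle => normalClosure_le_normal hle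
  have hYn : (normalClosure ((res p P : Subgroup G) : Set G)).Normal := normalClosure_normal
  generalize normalClosure ((res p P : Subgroup G) : Set G) = Y at *
  have hp : p.Prime := Fact.out
  set D := Cfsg.pCore p G with hD
  have hDn : D.Normal := Cfsg.pCore_normal p G
  have hDS : D ≤ (S : Subgroup G) := IsoData.pCore_le S
  have htopY : ∀ A : Subgroup G, A ≤ normalizer (Y : Set G) := by
    intro A; rw [normalizer_eq_top_iff.2 hYn]; exact le_top
  have htopD : ∀ A : Subgroup G, A ≤ normalizer (D : Set G) := by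
    intro A; rw [normalizer_eq_top_iff.2 hDn]; exact le_top
  -- Step 1
  have hY'n : (⁅Y, Y⁆).Normal := commutator_normal Y Y
  obtain ⟨hY'L, hnil⟩ : ⁅Y, Y⁆ ≤ L ∧ ⁅⁅Y, Y⁆, Y⁆ ≤ D := (hdich hY'n).resolve_left hnp
  obtain ⟨t, ht, htp, hty⟩ := hex hnil
  refine ⟨?_, hnil, t, ht, htp, hty⟩
  have hP1 : ∀ y ∈ Y, ∀ j : ℕ, y ^ p ^ j ∈ D → y ∈ D := by
    intro y hy j hj
    obtain ⟨k, hk⟩ := hty y hy
    rw [← QuotientGroup.eq_one_iff, QuotientGroup.mk_pow] at hj hk
    rw [← QuotientGroup.eq_one_iff, ← orderOf_eq_one_iff]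
    have h1 := orderOf_dvd_of_pow_eq_one hj
    have h2 := orderOf_dvd_of_pow_eq_one hk
    have h3 : Nat.Coprime (p ^ j) (t ^ k) :=
      Nat.Coprime.pow _ _ ((Nat.coprime_primes hp ht).2 (Ne.symm htp))
    exact Nat.eq_one_of_dvd_coprimes h3 h1 h2
  have hYS : Y ⊓ (S : Subgroup G) ≤ D := by
    intro y hy
    obtain ⟨hy1, hy2⟩ := mem_inf.1 hy
    obtain ⟨j, hj⟩ := S.2 ⟨y, hy2⟩
    have hj' : y ^ p ^ j = 1 := congrArg Subtype.val hj
    exact hP1 y hy1 j (by rw [hj']; exact one_mem _)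
  set X := Y ⊓ L with hX
  have hXQ : ⁅Q, X⁆ ≤ D := by
    refine le_trans (le_inf ?_ ?_) hYS
    · exact (commutator_mono le_rfl inf_le_left).trans (commutator_le_right Q Y)
    · exact (le_normalizer_iff_commutator_le_left.1 (inf_le_right.trans h.hLQ)).trans h.hQS
  -- Step 3
  set N' := Y ⊓ cenMod D Q with hN'
  have hXN' : X ≤ N' := le_inf inf_le_left (le_cenMod_iff.2 hXQ)
  have hN'n : N'.Normal := by
    apply hnorm
    · rw [le_normalizer_iff_commutator_le_right]
      exact ((commutator_mono le_rfl inf_le_left).trans (le_inf (commutator_le_left Y Y) hY'L)).trans hXN'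
    · exact le_trans (le_inf (htopY L) (h.hLQ.trans (normalizer_le_normalizer_cenMod Q)))
        inf_normalizer_le_normalizer_inf
  have hN'Y : ⁅N', Y⁆ ≤ D := by
    rcases hdich hN'n with h1 | h1
    · exfalso
      apply h.not_comm_le
      exact le_cenMod_iff.1 ((hRY.trans h1).trans inf_le_right)
    · exact h1.2
  -- Step 4
  have hYQn : (⁅Y, Q⁆).Normal := by
    apply hnorm (normalizer_commutator_ge_left Y Q)
    exact le_trans (le_inf (htopY L) h.hLQ) (inf_normalizer_le_normalizer_commutator Y Q)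
  have hYle : Y ≤ ⁅Y, Q⁆ := by
    rcases hdich hYQn with h1 | h1
    · exact h1
    · exfalso
      apply h.not_comm_le
      have h2 : ⁅Y, Q⁆ ≤ X := le_inf (commutator_le_left Y Q) h1.1
      have h3 : ⁅Y, Q⁆ ≤ D := by
        rw [commutator_le]
        intro y hy q hq
        have hcX : ⁅y, q⁆ ∈ X := h2 (commutator_mem_commutator hy hq)
        have hcq : ⁅q, ⁅y, q⁆⁆ ∈ D := commutator_le.1 hXQ q hq _ hcX
        obtain ⟨j, hj⟩ := S.2 ⟨q, h.hQS hq⟩
        have hj' : q ^ p ^ j = 1 := congrArg Subtype.val hj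
        apply hP1 _ (mem_inf.1 hcX).1 j
        rw [← QuotientGroup.eq_one_iff] at hcq ⊢
        have e0 : ((⁅q, ⁅y, q⁆⁆ : G) : G ⧸ D) = ⁅(q : G ⧸ D), ((⁅y, q⁆ : G) : G ⧸ D)⁆ :=
          map_commutatorElement (QuotientGroup.mk' D) q ⁅y, q⁆
        rw [e0, commutatorElement_eq_one_iff_mul_comm] at hcq
        have hcomm : Commute ((⁅y, q⁆ : G) : G ⧸ D) (q : G ⧸ D) := hcq.symm
        have e1 : ((⁅y, q⁆ : G) : G ⧸ D) * (q : G ⧸ D) = ((y * q * y⁻¹ : G) : G ⧸ D) := by
          rw [← QuotientGroup.mk_mul]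
          congr 1
          simp only [commutatorElement_def]; group
        have e2 := hcomm.mul_pow (p ^ j)
        have e3 : (q : G ⧸ D) ^ p ^ j = 1 := by
          rw [← QuotientGroup.mk_pow, hj', QuotientGroup.mk_one]
        rw [e1, ← QuotientGroup.mk_pow, conj_pow, hj', e3] at e2
        simp only [mul_one, mul_inv_cancel, QuotientGroup.mk_one] at e2
        rw [QuotientGroup.mk_pow]
        exact e2.symm
      rw [commutator_comm]
      exact (commutator_mono hRY le_rfl).trans h3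
  -- Step 5
  set R := res p P with hR
  set B := R ⊔ D with hB
  have hSR : (S : Subgroup G) ≤ normalizer (R : Set G) :=
    (h.hSP.trans le_normalizer).trans (normalizer_le_normalizer_res p P)
  have hSB : (S : Subgroup G) ≤ normalizer (B : Set G) :=
    le_trans (le_inf hSR (htopD _)) (Cfsg.Agent.Lib.Helper52Basic.inf_normalizer_le_normalizer_sup _ _)
  have hSX : (S : Subgroup G) ≤ normalizer (X : Set G) :=
    le_trans (le_inf (htopY _) (h.hSL.trans le_normalizer)) inf_normalizer_le_normalizer_inf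
  have hXB : X ≤ normalizer (B : Set G) := by
    rw [le_normalizer_iff]
    intro x hx
    have h1 : B ≤ B.comap (MulAut.conj x).toMonoidHom := by
      apply sup_le
      · intro r hr
        rw [mem_comap]
        show x * r * x⁻¹ ∈ _
        have h2 : x * r * x⁻¹ = r * (r⁻¹ * ⁅x, r⁆ * r⁻¹⁻¹) := by
          simp only [commutatorElement_def]; group
        rw [h2]
        exact mul_mem_sup hr (hDn.conj_mem _ ((commutator_le.1 hN'Y) x (hXN' hx) r (hRY hr)) _)
      · intro d hd
        rw [mem_comap]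
        exact (le_sup_right : _ ≤ B) (hDn.conj_mem d hd x)
    intro k hk
    exact h1 hk
  have hYB : Y ≤ X ⊔ B := by
    have h1 : Y ⊔ (S : Subgroup G) ≤ (R ⊔ X) ⊔ (S : Subgroup G) := by
      have h2 : L ⊓ (Y ⊔ (S : Subgroup G)) ≤ (R ⊔ X) ⊔ (S : Subgroup G) :=
        (inf_sup_le h hYn).trans (sup_le_sup_right le_sup_right _)
      apply gen_lemma (S : Subgroup G) _ _ (Y ⊔ (S : Subgroup G)) rfl le_sup_right
      · exact (inf_le_inf_right _ h.hNL).trans h2
      · intro P' h3 h4 h5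
        by_cases hP' : P' = P
        · rw [hP', ← res_sup_sylow S h.hSP]
          exact sup_le_sup_right le_sup_left _
        · exact (le_inf (h.hL P' h3 h5 hP') h4).trans h2
    intro y hy
    have h2 : y ∈ (S : Subgroup G) ⊔ (R ⊔ X) := by rw [sup_comm]; exact h1 (le_sup_left (a := Y) hy)
    have h3 : (S : Subgroup G) ≤ normalizer ((R ⊔ X : Subgroup G) : Set G) :=
      le_trans (le_inf hSR hSX) (Cfsg.Agent.Lib.Helper52Basic.inf_normalizer_le_normalizer_sup _ _)
    rw [← SetLike.mem_coe, coe_mul_of_left_le_normalizer_right _ _ h3] at h2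
    obtain ⟨s, hs, a, ha, rfl⟩ := h2
    have haY : a ∈ Y := (sup_le hRY inf_le_left : R ⊔ X ≤ Y) ha
    have hsY : s ∈ Y := by
      have := mul_mem hy (inv_mem haY)
      simpa using this
    have hsD : s ∈ D := hYS (mem_inf.2 ⟨hsY, hs⟩)
    have h4 : R ⊔ X ≤ X ⊔ B := sup_le (le_sup_left.trans le_sup_right) le_sup_left
    exact mul_mem ((le_sup_right.trans le_sup_right : D ≤ X ⊔ B) hsD) (h4 ha)
  have hYQB : ⁅Y, Q⁆ ≤ B := by
    rw [commutator_le]
    intro y hy q hq
    have h2 := hYB hy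
    rw [← SetLike.mem_coe, coe_mul_of_left_le_normalizer_right _ _ hXB] at h2
    obtain ⟨x, hx, b, hb, rfl⟩ := h2
    have e1 : ⁅x * b, q⁆ = x * (b * (q * b⁻¹ * q⁻¹)) * x⁻¹ * ⁅q, x⁆⁻¹ := by
      simp only [commutatorElement_def]; group
    rw [e1]
    apply mul_mem
    · apply (mem_normalizer_iff.1 (hXB hx) _).1
      exact mul_mem hb ((mem_normalizer_iff.1 (hSB (h.hQS hq)) _).1 (inv_mem hb))
    · exact inv_mem ((le_sup_right : D ≤ B) (commutator_le.1 hXQ q hq x hx))
  have hYP : Y ≤ P :=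
    (hYle.trans hYQB).trans (sup_le (res_le p P) (hDS.trans h.hSP))
  -- Step 6
  have hRn : R.Normal := by
    constructor
    intro r hr g
    apply Cfsg.Agent.Lib.Helper58Subnormal.conj_mem_closure _ r hr
    rintro s ⟨hs1, hs2⟩
    apply Subgroup.subset_closure
    refine ⟨hYP (hYn.conj_mem s (hRY (mem_res hs1 hs2)) g), ?_⟩
    rw [orderOf_conj]; exact hs2
  exact le_antisymm hRY (hncl R hRn le_rfl)

end Cfsg.Agent.Lib.Helper56Iso3
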