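import Cfsg.Agent.Lib.Helper56Iso2
import Cfsg.Agent.Lib.Helper28More
import Cfsg.Agent.Lib.Helper12Coprime

set_option autoImplicit false
set_option linter.unusedSectionVars false

/-! Isolated `p`-minimal subgroups: the perfect case, in the quotient by `O_p`. -/

namespace Cfsg.Agent.Lib.Helper56Iso4

open Cfsg Subgroup Cfsg.Agent.Lib.Helper40Sylow
  Cfsg.Agent.Lib.Helper28Comp Cfsg.Agent.Lib.Helper28Layer Cfsg.Agent.Lib.Helper28More
  Cfsg.Agent.Lib.Helper56Iso2
open scoped commutatorElement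

variable {H : Type*} [Group H] [Finite H] {p : ℕ} [Fact p.Prime]

/-- the situation in `G / O_p(G)` when the normal closure `Y` is perfect -/
structure BarData (p : ℕ) (S : Sylow p H) (Y L Q R : Subgroup H) : Prop where
  hYn : Y.Normal
  hperf : ⁅Y, Y⁆ = Y
  hLY : L ⊔ Y = ⊤
  hLQ : L ≤ normalizer (Q : Set H)
  hQS : Q ≤ (S : Subgroup H)
  hSL : (S : Subgroup H) ≤ L
  hRY : R ≤ Y
  hcl : ∀ N : Subgroup H, N.Normal → R ≤ N → Y ≤ N
  hA : ∀ C : Subgroup H, C.Normal → Q ≤ C → R ≤ C
  hF : ∀ A : Subgroup H, A ≤ Y → (S : Subgroup H) ≤ normalizer (A : Set H) → R ≤ A ∨ A ≤ L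
  hO : Cfsg.pCore p H = ⊥
  hQR : ¬ ⁅Q, R⁆ = ⊥

namespace BarData

variable {S : Sylow p H} {Y L Q R : Subgroup H}

theorem le_normalizer_of_normal {N : Subgroup H} (hN : N.Normal) (A : Subgroup H) :
    A ≤ normalizer (N : Set H) := by
  rw [normalizer_eq_top_iff.2 hN]; exact le_top

theorem not_comm (b : BarData p S Y L Q R) : ¬ ⁅Q, Y⁆ = ⊥ := by
  intro h
  apply b.hQR
  rw [eq_bot_iff, ← h]
  exact commutator_mono le_rfl b.hRY

theorem ne_bot (b : BarData p S Y L Q R) : Y ≠ ⊥ := by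
  intro h
  apply b.not_comm
  rw [h, commutator_bot_right]

theorem normal_of (b : BarData p S Y L Q R) {N : Subgroup H} (h1 : L ≤ normalizer (N : Set H))
    (h2 : Y ≤ normalizer (N : Set H)) : N.Normal := by
  rw [← normalizer_eq_top_iff, eq_top_iff, ← b.hLY]
  exact sup_le h1 h2

theorem comm_eq_bot_of_sn (b : BarData p S Y L Q R) {A : Subgroup H} (hAL : A ≤ L)
    (hSA : (S : Subgroup H) ≤ normalizer (A : Set H)) (hsn : Sn A ⊤) : ⁅A, Q⁆ = ⊥ := by
  have h1 : A ⊓ Q ≤ Cfsg.pCore p H := by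
    apply Cfsg.Agent.Lib.Helper52Subnormal.subnormal_pGroup_le_pCore _ (S.2.to_le (inf_le_right.trans b.hQS))
    rw [← sn_top_iff]
    refine (NormIn.sn ⟨inf_le_left, ?_⟩).trans hsn
    exact le_trans (le_inf le_normalizer (hAL.trans b.hLQ)) inf_normalizer_le_normalizer_inf
  rw [eq_bot_iff, ← b.hO]
  refine le_trans (le_inf ?_ ?_) h1
  · exact le_normalizer_iff_commutator_le_left.1 (b.hQS.trans hSA)
  · exact le_normalizer_iff_commutator_le_right.1 (hAL.trans b.hLQ)

theorem dich (b : BarData p S Y L Q R) {N : Subgroup H} (hN : N.Normal) : Y ≤ N ∨ ⁅N, Y⁆ = ⊥ := by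
  have hYn := b.hYn
  have hAn : (N ⊓ Y).Normal := inferInstance
  rcases b.hF (N ⊓ Y) inf_le_right (le_normalizer_of_normal hAn _) with h1 | h1
  · exact Or.inl (b.hcl N hN (h1.trans inf_le_left))
  · right
    have h2 : ⁅N ⊓ Y, Q⁆ = ⊥ :=
      b.comm_eq_bot_of_sn h1 (le_normalizer_of_normal hAn _) (NormIn.sn (normIn_top_iff.2 hAn))
    rw [commutator_comm, commutator_eq_bot_iff_le_centralizer] at h2
    have hCn : (centralizer ((N ⊓ Y : Subgroup H) : Set H)).Normal := inferInstance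
    have h3 : Y ≤ centralizer ((N ⊓ Y : Subgroup H) : Set H) := b.hcl _ hCn (b.hA _ hCn h2)
    rw [← commutator_eq_bot_iff_le_centralizer, commutator_comm] at h3
    apply perfect_three b.hperf
    rw [eq_bot_iff, ← h3]
    exact commutator_mono (commutator_le_inf N Y) le_rfl

theorem layerIn_eq (b : BarData p S Y L Q R) : layerIn Y = Y := by
  have hgn : (gfitIn (⊤ : Subgroup H)).Normal := normIn_top_iff.1 (gfitIn_normIn ⊤)
  have hgf : Y ≤ gfitIn (⊤ : Subgroup H) := by
    rcases b.dich hgn with h1 | h1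
    · exact h1
    · rw [commutator_comm, commutator_eq_bot_iff_le_centralizer] at h1
      have h2 := inf_centralizer_gfitIn_le (⊤ : Subgroup H)
      rw [top_inf_eq] at h2
      exact (h1.trans h2).trans (fittingIn_le_gfitIn _)
  have hsn : Sn Y (gfitIn (⊤ : Subgroup H)) := NormIn.sn ⟨hgf, le_normalizer_of_normal b.hYn _⟩
  have h1 : gfitIn Y = Y := eq_gfitIn_of_sn_gfitIn hsn
  have h2 : ∀ n : ℕ, Y ≤ layerIn Y ⊔ (fittingIn Y).lowerCentralSeries n := by
    intro n
    induction n with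
    | zero => exact h1.ge
    | succ n ih =>
      have h3 : (fittingIn Y).lowerCentralSeries n ≤ fittingIn Y :=
        (fittingIn Y).lowerCentralSeries_antitone (Nat.zero_le n)
      have h4 : ⁅layerIn Y, (fittingIn Y).lowerCentralSeries n⁆ = ⊥ := by
        rw [eq_bot_iff, ← commutator_layerIn_fittingIn Y]
        exact commutator_mono le_rfl h3
      calc Y = ⁅Y, Y⁆ := b.hperf.symm
        _ ≤ ⁅layerIn Y ⊔ (fittingIn Y).lowerCentralSeries n,
              layerIn Y ⊔ (fittingIn Y).lowerCentralSeries n⁆ := commutator_mono ih ih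
        _ ≤ ⁅layerIn Y, layerIn Y⁆ ⊔
              ⁅(fittingIn Y).lowerCentralSeries n, (fittingIn Y).lowerCentralSeries n⁆ :=
            commutator_sup_self_le h4
        _ ≤ layerIn Y ⊔ (fittingIn Y).lowerCentralSeries (n + 1) := by
            apply sup_le_sup
            · rw [layerIn_perfect]
            · exact commutator_mono le_rfl h3
  obtain ⟨n, hn⟩ := (Subgroup.isNilpotent_iff_lowerCentralSeries (fittingIn Y)).1 (fittingIn_isNilpotent Y)
  apply le_antisymm (layerIn_le Y)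
  have := h2 n
  rwa [hn, sup_bot_eq] at this

theorem le_comm (b : BarData p S Y L Q R) : Y ≤ ⁅Y, Q⁆ := by
  have hn : (⁅Y, Q⁆).Normal := by
    apply b.normal_of _ (normalizer_commutator_ge_left Y Q)
    exact le_trans (le_inf (le_normalizer_of_normal b.hYn _) b.hLQ)
      (inf_normalizer_le_normalizer_commutator Y Q)
  rcases b.dich hn with h1 | h1
  · exact h1
  · exfalso
    apply b.not_comm
    apply perfect_three b.hperf
    rw [commutator_comm Q Y]; exact h1

theorem comp_normIn (b : BarData p S Y L Q R) {K : Subgroup H} (hK : CompIn K Y) : NormIn K Y := by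
  have := compIn_normIn_layerIn hK
  rwa [b.layerIn_eq] at this

theorem not_comm_comp (b : BarData p S Y L Q R) {K : Subgroup H} (hK : CompIn K Y) :
    ¬ ⁅K, Q⁆ = ⊥ := by
  intro hc
  rw [commutator_eq_bot_iff_le_centralizer] at hc
  have hYn := b.hYn
  have h1 : normalClosure (K : Set H) ≤ centralizer (Q : Set H) := by
    show closure (Group.conjugatesOfSet (K : Set H)) ≤ _
    rw [closure_le]
    intro x hx
    obtain ⟨k, hk, hconj⟩ := Group.mem_conjugatesOfSet_iff.1 hx
    obtain ⟨g, rfl⟩ := isConj_iff.1 hconj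
    have hg : g ∈ L ⊔ Y := by rw [b.hLY]; exact mem_top g
    rw [← SetLike.mem_coe, mul_normal] at hg
    obtain ⟨l, hl, y, hy, rfl⟩ := hg
    have h2 : y * k * y⁻¹ ∈ K := (mem_normalizer_iff.1 ((b.comp_normIn hK).2 hy) k).1 hk
    have h3 : l ∈ normalizer ((centralizer (Q : Set H) : Subgroup H) : Set H) :=
      Cfsg.Agent.Lib.Helper52Basic.normalizer_le_normalizer_centralizer Q (b.hLQ hl)
    have h4 := (mem_normalizer_iff.1 h3 _).1 (hc h2)
    have e : l * y * k * (l * y)⁻¹ = l * (y * k * y⁻¹) * l⁻¹ := by group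
    rw [SetLike.mem_coe, e]
    exact h4
  have h2 : Q ≤ centralizer ((normalClosure (K : Set H) : Subgroup H) : Set H) := le_centralizer_iff.1 h1
  have hCn : (centralizer ((normalClosure (K : Set H) : Subgroup H) : Set H)).Normal := inferInstance
  have h3 := b.hcl _ hCn (b.hA _ hCn h2)
  apply hK.2.not_le_centralizer
  exact (hK.le.trans h3).trans (centralizer_le le_normalClosure)

open Cfsg.Agent.Lib.Helper58Subnormal (cl le_cl conj_mem_cl cl_le le_normalizer_cl)

theorem compIn_cj (b : BarData p S Y L Q R) {K : Subgroup H} (hK : CompIn K Y) (g : H) :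
    CompIn (cj g K) Y := by
  have h1 := hK.map_injective (f := (MulAut.conj g).toMonoidHom) (MulAut.conj g).injective
  have h2 : Y.map (MulAut.conj g).toMonoidHom = Y := Cfsg.Agent.Lib.Helper36PMin.cj_of_normal b.hYn g
  rwa [h2] at h1

theorem cl_normIn (b : BarData p S Y L Q R) {K : Subgroup H} (hK : CompIn K Y) :
    NormIn (cl (S : Subgroup H) K) Y := by
  refine ⟨cl_le hK.le (le_normalizer_of_normal b.hYn _), ?_⟩
  unfold cl
  rw [le_normalizer_closure_iff]
  rintro y hy _ ⟨s, hs, a, ha, rfl⟩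
  have h1 : s * a * s⁻¹ ∈ cj s K := conj_mem_cj ha
  have h2 := (mem_normalizer_iff.1 ((b.comp_normIn (b.compIn_cj hK s)).2 hy) _).1 h1
  obtain ⟨a', ha', e⟩ := h2
  apply Subgroup.subset_closure
  exact ⟨s, hs, a', ha', by rw [← e]; simp [MulAut.conj_apply]⟩

theorem le_cl_comp (b : BarData p S Y L Q R) {K : Subgroup H} (hK : CompIn K Y) :
    R ≤ cl (S : Subgroup H) K := by
  have hn := b.cl_normIn hK
  rcases b.hF _ hn.1 (le_normalizer_cl _ _) with h1 | h1
  · exact h1
  · exfalso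
    apply b.not_comm_comp hK
    have h2 := b.comm_eq_bot_of_sn h1 (le_normalizer_cl _ _)
      ((NormIn.sn hn).trans (NormIn.sn (normIn_top_iff.2 b.hYn)))
    rw [eq_bot_iff, ← h2]
    exact commutator_mono (le_cl _ _) le_rfl

theorem cl_le_centralizer (b : BarData p S Y L Q R) {K K' : Subgroup H} (hK : CompIn K Y)
    (hK' : CompIn K' Y) (hne : ∀ s ∈ (S : Subgroup H), K ≠ cj s K') :
    cl (S : Subgroup H) K' ≤ centralizer (K : Set H) := by
  unfold cl
  rw [closure_le]
  rintro _ ⟨s, hs, a, ha, rfl⟩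
  have h1 := (hK.eq_or_commute (b.compIn_cj hK' s)).resolve_left (hne s hs)
  rw [commutator_comm, commutator_eq_bot_iff_le_centralizer] at h1
  exact h1 (conj_mem_cj ha)

theorem trans (b : BarData p S Y L Q R) {K₁ K₂ : Subgroup H} (hK₁ : CompIn K₁ Y)
    (hK₂ : CompIn K₂ Y) : ∃ s ∈ (S : Subgroup H), K₂ = cj s K₁ := by
  by_contra hcon
  push Not at hcon
  have h1 : ∀ K, CompIn K Y → ⁅K, R⁆ = ⊥ := by
    intro K hK
    rw [commutator_comm, commutator_eq_bot_iff_le_centralizer]
    by_cases hc : ∃ s ∈ (S : Subgroup H), K = cj s K₁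
    · obtain ⟨s, hs, rfl⟩ := hc
      refine (b.le_cl_comp hK₂).trans (b.cl_le_centralizer hK hK₂ ?_)
      intro s' hs' he
      apply hcon (s'⁻¹ * s) (mul_mem (inv_mem hs') hs)
      rw [cj_mul, he, cj_inv_cj]
    · push Not at hc
      exact (b.le_cl_comp hK₁).trans (b.cl_le_centralizer hK hK₁ hc)
  have h2 : ⁅layerIn Y, R⁆ = ⊥ := commutator_sSup_left_eq_bot h1
  rw [b.layerIn_eq, commutator_comm, commutator_eq_bot_iff_le_centralizer] at h2
  have hYn := b.hYn
  have hCn : (centralizer (Y : Set H)).Normal := inferInstance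
  have h3 := b.hcl _ hCn h2
  rw [← commutator_eq_bot_iff_le_centralizer, b.hperf] at h3
  exact b.ne_bot h3

theorem exists_inv_sylow (b : BarData p S Y L Q R) (hc : (Nat.card Y).Coprime p) (r : ℕ)
    [Fact r.Prime] : ∃ T, IsSylowIn r T Y ∧ (S : Subgroup H) ≤ normalizer (T : Set H) := by
  obtain ⟨T₀, hT₀, -⟩ := exists_isSylowIn_ge (p := r) (Q := (⊥ : Subgroup H)) (H := Y) IsPGroup.of_bot bot_le
  obtain ⟨x, hx, -⟩ := Cfsg.Agent.Lib.Helper36PMin.exists_cj_normalized S b.hYn hc hT₀
  refine ⟨cj x T₀, ?_, hx⟩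
  have := hT₀.cj x
  rwa [Cfsg.Agent.Lib.Helper36PMin.cj_of_normal b.hYn x] at this

theorem dvd_card (b : BarData p S Y L Q R) : p ∣ Nat.card Y := by
  by_contra hp
  have hc : (Nat.card Y).Coprime p := ((Nat.Prime.coprime_iff_not_dvd Fact.out).2 hp).symm
  have hF' : ∀ A : Subgroup H, A ≤ Y → (S : Subgroup H) ≤ normalizer (A : Set H) →
      R ≤ A ∨ A ≤ Y ⊓ centralizer (Q : Set H) := by
    intro A hAY hSA
    rcases b.hF A hAY hSA with h1 | h1
    · exact Or.inl h1
    · right
      refine le_inf hAY ?_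
      rw [← commutator_eq_bot_iff_le_centralizer, eq_bot_iff]
      have h2 : A ⊓ Q = ⊥ := by
        apply Cfsg.Agent.Lib.Helper54Core.inf_eq_bot_of_coprime (S.2.to_le b.hQS)
        exact Nat.Coprime.coprime_dvd_left (Subgroup.card_dvd_of_le hAY) hc
      rw [← h2]
      refine le_inf ?_ ?_
      · exact le_normalizer_iff_commutator_le_left.1 (b.hQS.trans hSA)
      · exact le_normalizer_iff_commutator_le_right.1 (h1.trans b.hLQ)
  set N' := Y ⊓ centralizer (Q : Set H) with hN'
  have hRne : R ≠ ⊥ := by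
    intro h
    apply b.hQR
    rw [h, commutator_bot_right]
  have hndvd : ∀ (r : ℕ) (T : Subgroup H), IsSylowIn r T Y → T ≤ N' → ¬ r ∣ N'.relIndex Y := by
    intro r T hT hTN hd
    exact hT.2.2 (hd.trans (relIndex_dvd_of_le_left Y hTN))
  by_cases hall : ∀ (r : ℕ), r.Prime → ∀ T : Subgroup H, IsSylowIn r T Y →
      (S : Subgroup H) ≤ normalizer (T : Set H) → T ≤ N'
  · apply b.not_comm
    have h1 : N'.relIndex Y = 1 := by
      by_contra hne
      obtain ⟨r, hr, hrd⟩ := Nat.exists_prime_and_dvd hne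
      have := Fact.mk hr
      obtain ⟨T, hT, hST⟩ := b.exists_inv_sylow hc r
      exact hndvd r T hT (hall r hr T hT hST) hrd
    rw [relIndex_eq_one] at h1
    rw [commutator_comm, commutator_eq_bot_iff_le_centralizer]
    exact h1.trans inf_le_right
  · push Not at hall
    obtain ⟨r, hr, T, hT, hST, hTN⟩ := hall
    have hRT : R ≤ T := (hF' T hT.1 hST).resolve_right hTN
    have hcop : (T.relIndex Y).Coprime (N'.relIndex Y) := by
      by_contra hnc
      obtain ⟨r', hr', hd1, hd2⟩ := Nat.Prime.not_coprime_iff_dvd.1 hnc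
      have hne : r ≠ r' := by
        rintro rfl
        exact hT.2.2 hd1
      have := Fact.mk hr'
      obtain ⟨T', hT', hST'⟩ := b.exists_inv_sylow hc r'
      rcases hF' T' hT'.1 hST' with h1 | h1
      · apply hRne
        have := Fact.mk hr
        have h2 : Disjoint T T' := IsPGroup.disjoint_of_ne r r' hne T T' hT.2.1 hT'.2.1
        rw [eq_bot_iff, ← disjoint_iff.1 h2]
        exact le_inf hRT h1
      · exact hndvd r' T' hT' h1 hd2
    have h1 : ⁅Y, Q⁆ ≤ T := by
      rw [commutator_le]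
      intro y hy q hq
      obtain ⟨t, ht, n, hn, rfl⟩ :=
        Cfsg.Agent.Lib.Helper12Coprime.exists_mul_of_coprime_relIndex T N' Y hcop y hy
      have ht' : t ∈ T := (mem_inf.1 ht).1
      have hn' : n ∈ centralizer (Q : Set H) := (mem_inf.1 (mem_inf.1 hn).1).2
      have h2 : q * n = n * q := (mem_centralizer_iff.1 hn') q hq
      have e : ⁅t * n, q⁆ = t * (q * t⁻¹ * q⁻¹) := by
        simp only [commutatorElement_def]
        calc t * n * q * (t * n)⁻¹ * q⁻¹ = t * (n * q) * n⁻¹ * t⁻¹ * q⁻¹ := by group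
          _ = t * (q * n) * n⁻¹ * t⁻¹ * q⁻¹ := by rw [h2]
          _ = t * (q * t⁻¹ * q⁻¹) := by group
      rw [e]
      exact mul_mem ht' ((mem_normalizer_iff.1 (hST (b.hQS hq)) _).1 (inv_mem ht'))
    have h2 : IsPGroup r Y := hT.2.1.to_le (b.le_comm.trans h1)
    have := Fact.mk hr
    have h3 : Group.IsNilpotent Y := h2.isNilpotent
    have h4 : Group.IsSolvable Y := inferInstance
    have hpf : Group.IsPerfect Y := isPerfect_iff.mpr b.hperf
    have hn : Nontrivial Y := (nontrivial_iff_ne_bot Y).mpr b.ne_bot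
    exact Group.IsPerfect.not_isSolvable Y h4

end BarData

end Cfsg.Agent.Lib.Helper56Iso4
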