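import Cfsg.Agent.Lib.Helper56Iso4

set_option autoImplicit false
set_option linter.unusedSectionVars false

/-! Isolated `p`-minimal subgroups: passing to the quotient by `O_p(G)`. -/

namespace Cfsg.Agent.Lib.Helper56Iso5

open Cfsg Subgroup Cfsg.Agent.Lib.Helper40Sylow Cfsg.Agent.Lib.Helper52Subnormal
  Cfsg.Agent.Lib.Helper28Comp Cfsg.Agent.Lib.Helper28Layer Cfsg.Agent.Lib.Helper28More
  Cfsg.Agent.Lib.Helper56Iso Cfsg.Agent.Lib.Helper56Iso2 Cfsg.Agent.Lib.Helper56Iso4
open scoped commutatorElement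

variable {G : Type*} [Group G] [Finite G] {p : ℕ} [Fact p.Prime]
variable {S : Sylow p G} {P L Q : Subgroup G}

theorem barData_of (h : IsoData p S P L Q)
    (hperf : normalClosure ((res p P : Subgroup G) : Set G) ≤
      ⁅normalClosure ((res p P : Subgroup G) : Set G), normalClosure ((res p P : Subgroup G) : Set G)⁆) :
    BarData p (S.mapSurjective (QuotientGroup.mk'_surjective (Cfsg.pCore p G)))
      ((normalClosure ((res p P : Subgroup G) : Set G)).map (QuotientGroup.mk' (Cfsg.pCore p G)))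
      (L.map (QuotientGroup.mk' (Cfsg.pCore p G))) (Q.map (QuotientGroup.mk' (Cfsg.pCore p G)))
      ((res p P).map (QuotientGroup.mk' (Cfsg.pCore p G))) := by
  set Y := normalClosure ((res p P : Subgroup G) : Set G) with hY
  set D := Cfsg.pCore p G with hD
  have hDn : D.Normal := Cfsg.pCore_normal p G
  set π := QuotientGroup.mk' D with hπ
  have hπs : Function.Surjective π := QuotientGroup.mk'_surjective D
  have hYn : Y.Normal := normalClosure_normal
  have hker : ∀ A : Subgroup G, A.map π = ⊥ → A ≤ D := by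
    intro A hA a ha
    have h1 : π a ∈ A.map π := mem_map_of_mem π ha
    rw [hA, mem_bot] at h1
    exact (QuotientGroup.eq_one_iff a).1 h1
  refine ⟨hYn.map π hπs, ?_, ?_, ?_, map_mono h.hQS, map_mono h.hSL, map_mono IsoData.res_le_closure,
    ?_, ?_, ?_, pCore_quot_eq_bot, ?_⟩
  · rw [← map_commutator]
    congr 1
    exact le_antisymm (commutator_le_left Y Y) hperf
  · rw [← Subgroup.map_sup, sup_comm, h.closure_sup_eq_top]
    exact map_top_of_surjective π hπs
  · exact (map_mono h.hLQ).trans (le_normalizer_map π)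
  · intro N hN hRN
    rw [map_le_iff_le_comap] at hRN ⊢
    have := hN.comap π
    exact normalClosure_le_normal hRN
  · intro C hC hQC
    rw [map_le_iff_le_comap] at hQC ⊢
    exact h.res_le_of_normal (hC.comap π) hQC
  · intro A _ hSA
    have hSA' : (S : Subgroup G) ≤ normalizer ((A.comap π : Subgroup G) : Set G) := by
      refine le_trans ?_ (le_normalizer_comap π)
      rw [← map_le_iff_le_comap]
      exact hSA
    rcases h.le_or_le (le_sup_right : (S : Subgroup G) ≤ A.comap π ⊔ S) with h1 | h1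
    · right
      have h2 := map_mono (f := π) (le_sup_left.trans h1)
      rwa [map_comap_eq_self_of_surjective hπs] at h2
    · left
      rw [map_le_iff_le_comap]
      exact res_le_of_le_sup S.2 hSA' h1
  · intro hc
    rw [← map_commutator] at hc
    exact h.not_comm_le (hker _ hc)

theorem pCore_subgroup_eq {Y : Subgroup G} (hYn : Y.Normal) :
    Cfsg.pCore p ↥Y = (Cfsg.pCore p G).subgroupOf Y := by
  apply le_antisymm
  · have h1 : (Cfsg.pCore p ↥Y).map Y.subtype ≤ Cfsg.pCore p G :=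
      map_pCore_le_pCore_of_subnormal (sn_top_iff.1 (NormIn.sn (normIn_top_iff.2 hYn)))
    intro y hy
    rw [mem_subgroupOf]
    exact h1 ⟨y, hy, rfl⟩
  · exact Cfsg.Agent.Lib.Helper28Fitting.le_pCore ((Cfsg.pCore_normal p G).subgroupOf Y)
      ((Cfsg.Agent.Lib.Helper28Fitting.pCore_isPGroup p).comap_of_injective Y.subtype Y.subtype_injective)

theorem transport {Y : Subgroup G} (hYn : Y.Normal) :
    ∃ φ : (↥Y ⧸ Cfsg.pCore p ↥Y) →* (G ⧸ Cfsg.pCore p G), Function.Injective φ ∧
      (⊤ : Subgroup (↥Y ⧸ Cfsg.pCore p ↥Y)).map φ = Y.map (QuotientGroup.mk' (Cfsg.pCore p G)) ∧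
      ∀ K : Subgroup (↥Y ⧸ Cfsg.pCore p ↥Y),
        (K.comap (QuotientGroup.mk' (Cfsg.pCore p ↥Y))).map Y.subtype =
          Y ⊓ (K.map φ).comap (QuotientGroup.mk' (Cfsg.pCore p G)) := by
  have hO := pCore_subgroup_eq (p := p) hYn
  have hlift : ∀ x ∈ Cfsg.pCore p ↥Y, ((QuotientGroup.mk' (Cfsg.pCore p G)).comp Y.subtype) x = 1 := by
    intro x hx
    rw [hO, mem_subgroupOf] at hx
    exact (QuotientGroup.eq_one_iff _).2 hx
  set φ := QuotientGroup.lift (Cfsg.pCore p ↥Y) ((QuotientGroup.mk' (Cfsg.pCore p G)).comp Y.subtype) hlift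
    with hφ
  have hmk : ∀ y : ↥Y, φ (QuotientGroup.mk y) = QuotientGroup.mk' (Cfsg.pCore p G) (y : G) := fun y => rfl
  have hinj : Function.Injective φ := by
    rw [injective_iff_map_eq_one]
    intro w hw
    obtain ⟨y, rfl⟩ := QuotientGroup.mk_surjective w
    rw [hmk] at hw
    rw [QuotientGroup.eq_one_iff, hO, mem_subgroupOf]
    exact (QuotientGroup.eq_one_iff _).1 hw
  refine ⟨φ, hinj, ?_, ?_⟩
  · ext x
    constructor
    · rintro ⟨w, -, rfl⟩
      obtain ⟨y, rfl⟩ := QuotientGroup.mk_surjective w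
      exact ⟨y, y.2, (hmk y).symm⟩
    · rintro ⟨y, hy, rfl⟩
      exact ⟨QuotientGroup.mk (⟨y, hy⟩ : ↥Y), mem_top _, hmk ⟨y, hy⟩⟩
  · intro K
    ext x
    constructor
    · rintro ⟨y, hy, rfl⟩
      refine mem_inf.2 ⟨y.2, ?_⟩
      rw [mem_comap]
      exact ⟨QuotientGroup.mk y, hy, hmk y⟩
    · intro hx
      obtain ⟨hxY, hx2⟩ := mem_inf.1 hx
      obtain ⟨w, hw, hwx⟩ := hx2
      have h1 : w = QuotientGroup.mk (⟨x, hxY⟩ : ↥Y) := hinj (by rw [hwx, hmk])
      refine ⟨⟨x, hxY⟩, ?_, rfl⟩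
      rw [SetLike.mem_coe, mem_comap]
      show QuotientGroup.mk (⟨x, hxY⟩ : ↥Y) ∈ K
      rw [← h1]; exact hw

omit [Finite G] [Fact p.Prime] in
theorem cj_inf_comap {D Y : Subgroup G} [D.Normal] (hYn : Y.Normal) (A : Subgroup (G ⧸ D)) (s : G) :
    cj s (Y ⊓ A.comap (QuotientGroup.mk' D)) = Y ⊓ (cj (QuotientGroup.mk' D s) A).comap (QuotientGroup.mk' D) := by
  ext x
  rw [mem_cj, mem_inf, mem_inf, mem_comap, mem_comap, mem_cj]
  have e : QuotientGroup.mk' D (s⁻¹ * x * s) =
      (QuotientGroup.mk' D s)⁻¹ * QuotientGroup.mk' D x * QuotientGroup.mk' D s := by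
    simp only [map_mul, map_inv]
  rw [e]
  apply and_congr _ Iff.rfl
  constructor
  · intro hx
    have := hYn.conj_mem _ hx s
    simpa [mul_assoc] using this
  · intro hx
    have := hYn.conj_mem _ hx s⁻¹
    simpa [mul_assoc] using this

end Cfsg.Agent.Lib.Helper56Iso5
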