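import Mathlib
import Cfsg.Agent.Lib.Helper56Super
import Cfsg.Agent.Lib.Helper67HSub
import Cfsg.Agent.S3803

set_option autoImplicit false

namespace Cfsg.Agent.Lib.Helper56Super2

open Cfsg.Agent.Lib.Helper11Supersolvable Cfsg.Agent.Lib.Helper56Super
open Cfsg.Agent.Lib.Helper67Odd2
open scoped commutatorElement

universe u

/-- the normal subgroup generated by all commutators and all `(p-1)`-th powers -/
def resid (p : ℕ) (N : Type*) [Group N] : Subgroup N :=
  Subgroup.normalClosure {x : N | (∃ g h : N, x = ⁅g, h⁆) ∨ ∃ g : N, x = g ^ (p - 1)}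

instance resid_normal (p : ℕ) (N : Type*) [Group N] : (resid p N).Normal :=
  Subgroup.normalClosure_normal

theorem commutator_mem_resid (p : ℕ) {N : Type*} [Group N] (g h : N) : ⁅g, h⁆ ∈ resid p N :=
  Subgroup.subset_normalClosure (Or.inl ⟨g, h, rfl⟩)

theorem pow_mem_resid (p : ℕ) {N : Type*} [Group N] (g : N) : g ^ (p - 1) ∈ resid p N :=
  Subgroup.subset_normalClosure (Or.inr ⟨g, rfl⟩)

theorem resid_le (p : ℕ) {N : Type*} [Group N] (K : Subgroup N) [K.Normal]
    (h1 : ∀ g h : N, ⁅g, h⁆ ∈ K) (h2 : ∀ g : N, g ^ (p - 1) ∈ K) : resid p N ≤ K := by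
  apply Subgroup.normalClosure_le_normal
  rintro x (⟨g, h, rfl⟩ | ⟨g, rfl⟩)
  · exact h1 g h
  · exact h2 g

/-- `resid` centralizes every normal subgroup of order `p` -/
theorem resid_le_centralizer {p : ℕ} [Fact p.Prime] {Q : Type*} [Group Q] (Z : Subgroup Q)
    [Z.Normal] (hZ : Nat.card Z = p) : resid p Q ≤ Subgroup.centralizer (Z : Set Q) := by
  have hp : p.Prime := Fact.out
  have hcyc : IsCyclic Z := isCyclic_of_prime_card hZ
  have hfin : Finite Z := Nat.finite_of_card_ne_zero (by rw [hZ]; exact hp.ne_zero)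
  apply resid_le
  · intro g h
    apply commutator_le_centralizer_of_isCyclic Z hcyc
    rw [commutator_def]
    exact Subgroup.commutator_mem_commutator (Subgroup.mem_top g) (Subgroup.mem_top h)
  · intro g
    have h1 : (MulAut.conjNormal g : MulAut Z) ^ (p - 1) = 1 := by
      have h2 : Nat.card (MulAut Z) = p - 1 := by
        rw [IsCyclic.card_mulAut, hZ, Nat.totient_prime hp]
      rw [← h2]
      exact pow_card_eq_one'
    rw [← map_pow] at h1
    rw [Subgroup.mem_centralizer_iff]
    intro z hz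
    have h3 := congrArg (fun f : MulAut Z => ((f ⟨z, hz⟩ : Z) : Q)) h1
    have h4 : g ^ (p - 1) * z * (g ^ (p - 1))⁻¹ = z := h3
    calc z * g ^ (p - 1) = (g ^ (p - 1) * z * (g ^ (p - 1))⁻¹) * g ^ (p - 1) := by rw [h4]
      _ = g ^ (p - 1) * z := by group

theorem card_eq_card_map_mul {N : Type*} [Group N] [Finite N] (Z P : Subgroup N) [Z.Normal]
    (hZP : Z ≤ P) : Nat.card P = Nat.card (P.map (QuotientGroup.mk' Z)) * Nat.card Z := by
  have hsurj := QuotientGroup.mk'_surjective Z
  have hcomap : (P.map (QuotientGroup.mk' Z)).comap (QuotientGroup.mk' Z) = P := by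
    rw [Subgroup.comap_map_eq, QuotientGroup.ker_mk']
    exact sup_of_le_left hZP
  have h1 : (P.map (QuotientGroup.mk' Z)).index = P.index := by
    conv_rhs => rw [← hcomap]
    exact (Subgroup.index_comap_of_surjective _ hsurj).symm
  have h2 := Subgroup.card_mul_index P
  have h3 := Subgroup.card_mul_index (P.map (QuotientGroup.mk' Z))
  have h4 := Subgroup.card_eq_card_quotient_mul_card_subgroup Z
  rw [h1] at h3
  have h6 : 0 < P.index := Nat.pos_of_ne_zero Subgroup.index_ne_zero_of_finite
  apply Nat.eq_of_mul_eq_mul_right h6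
  rw [h2, h4, ← h3]; ring

/-- `resid` acts trivially on every normal section of order `p` -/
theorem resid_comm_mem {p : ℕ} [Fact p.Prime] {N : Type*} [Group N] [Finite N] (M F : Subgroup N)
    [M.Normal] [F.Normal] (hMF : M ≤ F) (hcard : Nat.card F = p * Nat.card M) (u : N)
    (hu : u ∈ resid p N) (x : N) (hx : x ∈ F) : u * x * u⁻¹ * x⁻¹ ∈ M := by
  have hsurj := QuotientGroup.mk'_surjective M
  have hZn : (F.map (QuotientGroup.mk' M)).Normal := Subgroup.Normal.map inferInstance _ hsurj
  have hZ : Nat.card (F.map (QuotientGroup.mk' M)) = p := by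
    have h1 := card_eq_card_map_mul M F hMF
    rw [hcard] at h1
    exact (Nat.eq_of_mul_eq_mul_right Nat.card_pos h1).symm
  have h1 := resid_le_centralizer (F.map (QuotientGroup.mk' M)) hZ
  have h2 : resid p N ≤ (Subgroup.centralizer ((F.map (QuotientGroup.mk' M) : Subgroup (N ⧸ M)) :
      Set (N ⧸ M))).comap (QuotientGroup.mk' M) := by
    apply resid_le
    · intro g h
      rw [Subgroup.mem_comap, map_commutatorElement]
      exact h1 (commutator_mem_resid p _ _)
    · intro g
      rw [Subgroup.mem_comap, map_pow]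
      exact h1 (pow_mem_resid p _)
  have h3 := Subgroup.mem_centralizer_iff.1 (Subgroup.mem_comap.1 (h2 hu)) _
    (Subgroup.mem_map_of_mem (QuotientGroup.mk' M) hx)
  rw [← QuotientGroup.eq_one_iff, ← QuotientGroup.mk'_apply]
  rw [map_mul, map_mul, map_mul, map_inv, map_inv, ← h3]
  group

/-- A `p'`-element acting trivially on `F / M` for all maximal subgroups `M` of the `p`-group `F`
centralizes `F`. -/
theorem centralizes_of_trivial_on_maximal {p : ℕ} [hp : Fact p.Prime] {G : Type*} [Group G]
    [Finite G] (g : G) (hg : (orderOf g).Coprime p) (F : Subgroup G) (k : ℕ)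
    (hF : Nat.card F = p ^ (k + 1))
    (hmax : ∀ M : Subgroup G, M ≤ F → Nat.card M = p ^ k →
      Subgroup.zpowers g ≤ Subgroup.normalizer (M : Set G) ∧
        ∀ a ∈ Subgroup.zpowers g, ∀ x ∈ F, a * x * a⁻¹ * x⁻¹ ∈ M) :
    ∀ x ∈ F, g * x * g⁻¹ = x := by
  have hFp : IsPGroup p F := IsPGroup.of_card hF
  set A := Subgroup.zpowers g with hA
  set C : Subgroup G := F ⊓ Subgroup.centralizer (A : Set G) with hC
  by_cases hCF : C = F
  · intro x hx
    have hxC : x ∈ C := by rw [hCF]; exact hx
    have h1 := Subgroup.mem_centralizer_iff.mp hxC.2 g (Subgroup.mem_zpowers g)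
    rw [h1]; group
  exfalso
  have hCle : C ≤ F := inf_le_left
  have hClt : C < F := lt_of_le_of_ne hCle hCF
  obtain ⟨i, hi⟩ := IsPGroup.iff_card.mp (hFp.to_le hCle)
  have hik : i ≤ k := by
    have h1 := Cfsg.Agent.Lib.Helper30Coprime.card_lt_of_lt hClt
    rw [hi, hF] at h1
    have := (Nat.pow_lt_pow_iff_right hp.out.one_lt).mp h1
    omega
  obtain ⟨M, hCM, hMF, hM⟩ := exists_between F C hCle hi hF hik (Nat.le_succ k)
  have hMne : ¬ F ≤ M := by
    intro h
    have := Subgroup.card_le_of_le h
    rw [hF, hM] at this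
    have h2 := (Nat.pow_le_pow_iff_right hp.out.one_lt).mp this
    omega
  obtain ⟨x, hxF, hxM⟩ := SetLike.not_le_iff_exists.mp hMne
  obtain ⟨hAM, hcos⟩ := hmax M hMF hM
  have hcop : (Nat.card A).Coprime (Nat.card M) := by
    rw [hA, Nat.card_zpowers, hM]
    exact Nat.Coprime.pow_right _ hg
  have hMsolv : Group.IsSolvable M := by
    have : Group.IsNilpotent M := (hFp.to_le hMF).isNilpotent
    infer_instance
  obtain ⟨u, hu, hux⟩ := Cfsg.Agent.Lib.Helper1Coprime.exists_mul_mem_centralizer hAM hcop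
    (Or.inr hMsolv) x (fun a ha => hcos a ha x hxF)
  have h5 : u * x ∈ C := ⟨F.mul_mem (hMF hu) hxF, hux⟩
  have h6 : u * x ∈ M := hCM h5
  apply hxM
  have : x = u⁻¹ * (u * x) := by group
  rw [this]
  exact M.mul_mem (M.inv_mem hu) h6

/-- the `p'`-elements of `resid p N` fix the elements of order `p` of `P` -/
theorem resid_fix_order_p {p : ℕ} [hp : Fact p.Prime] {N : Type*} [Group N] [Finite N]
    (P : Subgroup N) (n d : ℕ) (hPc : Nat.card P = p ^ n) (hd1 : 1 ≤ d) (hdn : d < n)
    (hnorm : ∀ F : Subgroup N, F ≤ P → Nat.card F = p ^ d → F.Normal)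
    (a : N) (ha : a ∈ resid p N) (hcop : (orderOf a).Coprime p) (x : N) (hx : x ∈ P)
    (hxp : x ^ p = 1) : a * x * a⁻¹ = x := by
  by_cases hx1 : x = 1
  · rw [hx1]; group
  have hox : orderOf x = p := orderOf_eq_prime hxp hx1
  have hXP : Subgroup.zpowers x ≤ P := Subgroup.zpowers_le.2 hx
  have hX : Nat.card (Subgroup.zpowers x) = p ^ 1 := by rw [Nat.card_zpowers, hox, pow_one]
  obtain ⟨E, hXE, hEP, hE⟩ := exists_between P _ hXP hX hPc hd1 hdn.le
  obtain ⟨F, hEF, hFP, hF⟩ := exists_between P E hEP hE hPc (Nat.le_succ d) hdn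
  have hxE : x ∈ E := hXE (Subgroup.mem_zpowers x)
  have hEn : E.Normal := hnorm E hEP hE
  by_cases hcyc : IsCyclic F
  · have hXn : (Subgroup.zpowers x).Normal := by
      constructor
      intro y hy g
      have h1 : (Subgroup.zpowers x).map (MulAut.conj g).toMonoidHom ≤ F := by
        rintro _ ⟨z, hz, rfl⟩
        exact hEF (hEn.conj_mem z (hXE hz) g)
      have h2 : Nat.card ((Subgroup.zpowers x).map (MulAut.conj g).toMonoidHom) =
          Nat.card (Subgroup.zpowers x) :=
        Subgroup.card_map_of_injective (MulAut.conj g).injective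
      have h3 := Cfsg.Agent.Lib.Helper29Basic.eq_of_card_eq_of_le_cyclic hcyc h1 (hXE.trans hEF) h2
      rw [← h3]
      exact ⟨y, hy, rfl⟩
    have h1 := resid_le_centralizer (Subgroup.zpowers x) (by rw [hX, pow_one]) ha
    have h2 := Subgroup.mem_centralizer_iff.1 h1 x (Subgroup.mem_zpowers x)
    rw [← h2]; group
  · have hFp : IsPGroup p F := IsPGroup.of_card hF
    have hFn : F.Normal := by
      constructor
      intro y hy g
      have hyF : Subgroup.zpowers y ≤ F := by rw [Subgroup.zpowers_le]; exact hy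
      obtain ⟨j, hj⟩ := IsPGroup.iff_card.mp (hFp.to_le hyF)
      have hje : j ≤ d := by
        by_contra hlt
        push Not at hlt
        have h1 : Nat.card F ≤ Nat.card (Subgroup.zpowers y) := by
          rw [hF, hj]; exact Nat.pow_le_pow_right hp.out.pos hlt
        have h2 : Subgroup.zpowers y = F := Subgroup.eq_of_le_of_card_ge hyF h1
        apply hcyc
        rw [← h2]
        infer_instance
      obtain ⟨M, hyM, hMF, hM⟩ := exists_between F _ hyF hj hF hje (Nat.le_succ d)
      exact hMF ((hnorm M (hMF.trans hFP) hM).conj_mem y (hyM (Subgroup.mem_zpowers y)) g)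
    refine centralizes_of_trivial_on_maximal a hcop F d hF ?_ x (hEF hxE)
    intro M hMF hM
    have hMn : M.Normal := hnorm M (hMF.trans hFP) hM
    refine ⟨?_, ?_⟩
    · rw [Subgroup.normalizer_eq_top_iff.2 hMn]; exact le_top
    · intro b hb y hy
      have hb' : b ∈ resid p N := (Subgroup.zpowers_le.2 ha) hb
      exact resid_comm_mem M F hMF (by rw [hF, hM, pow_succ, mul_comm]) b hb' y hy

/-- Let `P` be a normal `p`-subgroup of `N` of order `p ^ n` and `1 ≤ d < n` such that all subgroups
of `P` of order `p ^ d` (and of order `4` if `p ^ d = 2`) are normal in `N`.  Then `P` has a chain of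
subgroups normal in `N` with cyclic steps. -/
theorem chain_of_normal_order {p : ℕ} [hp : Fact p.Prime] {N : Type u} [Group N] [Finite N]
    (P : Subgroup N) [P.Normal] (n d : ℕ) (hPc : Nat.card P = p ^ n) (hd1 : 1 ≤ d) (hdn : d < n)
    (hnorm : ∀ F : Subgroup N, F ≤ P → (Nat.card F = p ^ d ∨ (p ^ d = 2 ∧ Nat.card F = 4)) →
      F.Normal) : Chain P := by
  have hPp : IsPGroup p P := IsPGroup.of_card hPc
  refine chain_of_centralizes p P (resid p N) hPp (commutator_mem_resid p) (pow_mem_resid p) ?_
  intro u hu hcop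
  have hun : Subgroup.zpowers u ≤ Subgroup.normalizer (P : Set N) := by
    rw [Subgroup.normalizer_eq_top_iff.2 inferInstance]; exact le_top
  obtain rfl | hp2 := eq_or_ne p 2
  · obtain ⟨D, -, hDP, hD⟩ := exists_between (p := 2) P ⊥ bot_le (i := 0) (by simp) hPc
      (Nat.zero_le d) hdn.le
    have hodd : Odd (Nat.card (Subgroup.zpowers u)) := by
      rw [Nat.card_zpowers]; exact Nat.coprime_two_right.mp hcop
    have h1 := Cfsg.Agent.S3803.result P (Subgroup.zpowers u) D hPp hodd hun hDP
      (by rw [hD]; exact Nat.one_lt_pow (by omega) (by norm_num))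
      (by rw [hD, hPc]; exact Nat.pow_lt_pow_right (by norm_num) hdn)
      (by
        intro E hEP hE
        rw [hD] at hE
        rw [Subgroup.normalizer_eq_top_iff.2 (hnorm E hEP hE)]; exact le_top)
    exact h1 (Subgroup.mem_zpowers u)
  · have hcop' : (Nat.card (Subgroup.zpowers u)).Coprime p := by rw [Nat.card_zpowers]; exact hcop
    have h1 := Cfsg.Agent.Lib.Helper30Coprime.centralizes_of_fix_order_p p hp2 (Subgroup.zpowers u)
      hcop' P hPp hun (by
        intro a ha x hx hxp
        have ha' : a ∈ resid p N := (Subgroup.zpowers_le.2 hu) ha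
        have hoa : (orderOf a).Coprime p := by
          apply Nat.Coprime.coprime_dvd_left _ hcop'
          have := Subgroup.orderOf_dvd_natCard _ ha
          exact this
        exact resid_fix_order_p P n d hPc hd1 hdn (fun F hF hc => hnorm F hF (Or.inl hc)) a ha' hoa
          x hx hxp) u (Subgroup.mem_zpowers u)
    rw [Subgroup.mem_centralizer_iff]
    intro x hx
    have h2 := h1 x hx
    calc x * u = (u * x * u⁻¹) * u := by rw [h2]
      _ = u * x := by group

end Cfsg.Agent.Lib.Helper56Super2
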