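import Mathlib
import Cfsg.Prelude.Def_SylowChains
import Cfsg.Agent.Lib.Helper57SPE

set_option autoImplicit false

namespace Cfsg.Agent.Lib.Helper57Chain

open Subgroup
open scoped Pointwise
open Cfsg.Agent.Lib.Helper57SPE

variable {G : Type*} [Group G] {p : ℕ}

/-- Adjacency in the Sylow graph. -/
def Adj (S T : Sylow p G) : Prop := S ≠ T ∧ (S : Subgroup G) ⊓ (T : Subgroup G) ≠ ⊥

/-- Connectedness in the Sylow graph. -/
def Conn (S T : Sylow p G) : Prop := Relation.ReflTransGen Adj S T

theorem exists_chain {S T : Sylow p G} (h : Conn S T) :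
    ∃ (n : ℕ) (c : Fin (n + 1) → Sylow p G), c 0 = S ∧ c (Fin.last n) = T ∧
      ∀ i : Fin n, Adj (c i.castSucc) (c i.succ) := by
  induction h using Relation.ReflTransGen.head_induction_on with
  | refl => exact ⟨0, fun _ => T, rfl, rfl, fun i => i.elim0⟩
  | @head a b hab _ ih =>
    obtain ⟨n, c, h0, hl, hs⟩ := ih
    refine ⟨n + 1, Fin.cons a c, rfl, ?_, ?_⟩
    · rw [← Fin.succ_last, Fin.cons_succ]; exact hl
    · intro i
      induction i using Fin.cases with
      | zero =>
        have e1 : (Fin.cons a c : Fin (n + 2) → Sylow p G) (Fin.castSucc 0) = a := rfl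
        have e2 : (Fin.cons a c : Fin (n + 2) → Sylow p G) (Fin.succ 0) = c 0 := rfl
        rw [e1, e2, h0]; exact hab
      | succ j =>
        have e1 : (Fin.cons a c : Fin (n + 2) → Sylow p G) (Fin.castSucc j.succ) = c j.castSucc := rfl
        have e2 : (Fin.cons a c : Fin (n + 2) → Sylow p G) (Fin.succ j.succ) = c j.succ := rfl
        rw [e1, e2]; exact hs j

theorem conn_of_chain (n : ℕ) (c : Fin (n + 1) → Sylow p G)
    (hs : ∀ i : Fin n, Adj (c i.castSucc) (c i.succ)) : ∀ i : Fin (n + 1), Conn (c 0) (c i) := by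
  intro i
  induction i using Fin.induction with
  | zero => exact Relation.ReflTransGen.refl
  | succ j ih => exact Relation.ReflTransGen.tail ih (hs j)

theorem chain_iff : Cfsg.IsSylowChainConnected p G ↔ ∀ S T : Sylow p G, Conn S T := by
  constructor
  · intro h S T
    obtain ⟨n, c, h0, hl, _, hs⟩ := h S T
    have := conn_of_chain n c hs (Fin.last n)
    rwa [h0, hl] at this
  · intro h S T
    by_cases hST : S = T
    · subst hST
      exact ⟨0, fun _ => S, rfl, rfl, fun _ => inf_le_left, fun i => i.elim0⟩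
    · by_cases hb : (S : Subgroup G) ⊓ (T : Subgroup G) = ⊥
      · obtain ⟨n, c, h0, hl, hs⟩ := exists_chain (h S T)
        exact ⟨n, c, h0, hl, fun i => hb ▸ bot_le, hs⟩
      · refine ⟨1, ![S, T], rfl, rfl, ?_, ?_⟩
        · intro i
          fin_cases i
          · exact inf_le_left
          · exact inf_le_right
        · intro i
          fin_cases i
          exact ⟨hST, hb⟩

theorem inf_ne_bot_iff {S T : Subgroup G} : S ⊓ T ≠ ⊥ ↔ ∃ x, x ∈ S ∧ x ∈ T ∧ x ≠ 1 := by
  rw [Subgroup.ne_bot_iff_exists_ne_one]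
  constructor
  · rintro ⟨⟨x, hx⟩, hne⟩
    exact ⟨x, hx.1, hx.2, fun h => hne (Subtype.ext h)⟩
  · rintro ⟨x, h1, h2, hne⟩
    exact ⟨⟨x, h1, h2⟩, fun h => hne (congrArg Subtype.val h)⟩

theorem Adj.symm {S T : Sylow p G} (h : Adj S T) : Adj T S := ⟨h.1.symm, inf_comm (S : Subgroup G) _ ▸ h.2⟩

theorem Conn.symm {S T : Sylow p G} (h : Conn S T) : Conn T S := by
  induction h with
  | refl => exact Relation.ReflTransGen.refl
  | tail _ hbc ih => exact Relation.ReflTransGen.head (Adj.symm hbc) ih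

theorem Conn.trans {S T U : Sylow p G} (h : Conn S T) (h' : Conn T U) : Conn S U :=
  Relation.ReflTransGen.trans h h'

theorem Adj.smul {S T : Sylow p G} (h : Adj S T) (g : G) : Adj (g • S) (g • T) := by
  refine ⟨fun hh => h.1 (MulAction.injective g hh), ?_⟩
  obtain ⟨x, h1, h2, hne⟩ := inf_ne_bot_iff.mp h.2
  refine inf_ne_bot_iff.mpr ⟨g * x * g⁻¹, ?_, ?_, ?_⟩
  · refine mem_smul_sylow.mpr ?_
    have e : g⁻¹ * (g * x * g⁻¹) * g = x := by group
    rw [e]; exact h1
  · refine mem_smul_sylow.mpr ?_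
    have e : g⁻¹ * (g * x * g⁻¹) * g = x := by group
    rw [e]; exact h2
  · intro hh
    apply hne
    have e : x = g⁻¹ * (g * x * g⁻¹) * g := by group
    rw [e, hh]; group

theorem Conn.smul {S T : Sylow p G} (h : Conn S T) (g : G) : Conn (g • S) (g • T) := by
  induction h with
  | refl => exact Relation.ReflTransGen.refl
  | tail _ hbc ih => exact Relation.ReflTransGen.tail ih (Adj.smul hbc g)

theorem conn_of_mem {S T : Sylow p G} {x : G} (h1 : x ∈ S) (h2 : x ∈ T) (hne : x ≠ 1) : Conn S T := by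
  by_cases hST : S = T
  · subst hST; exact Relation.ReflTransGen.refl
  · exact Relation.ReflTransGen.single ⟨hST, inf_ne_bot_iff.mpr ⟨x, h1, h2, hne⟩⟩

/-- The stabilizer of the connected component of `S`. -/
def compStab (S : Sylow p G) : Subgroup G where
  carrier := {g | Conn S (g • S)}
  one_mem' := by
    show Conn S ((1 : G) • S)
    rw [one_smul]; exact Relation.ReflTransGen.refl
  mul_mem' := by
    intro a b ha hb
    show Conn S ((a * b) • S)
    rw [mul_smul]
    exact Conn.trans ha (Conn.smul hb a)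
  inv_mem' := by
    intro a ha
    show Conn S (a⁻¹ • S)
    have := Conn.smul ha a⁻¹
    rw [inv_smul_smul] at this
    exact this.symm

theorem mem_compStab {S : Sylow p G} {g : G} : g ∈ compStab S ↔ Conn S (g • S) := Iff.rfl

theorem le_compStab (S : Sylow p G) : (S : Subgroup G) ≤ compStab S := by
  intro s hs
  rw [mem_compStab, Sylow.smul_eq_iff_mem_normalizer.mpr (le_normalizer hs)]
  exact Relation.ReflTransGen.refl

theorem exists_sylow_of_mem_compStab [Fact p.Prime] [Finite G] (S : Sylow p G) {x : G}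
    (hx : x ∈ compStab S) (ho : orderOf x = p) : ∃ R : Sylow p G, x ∈ R ∧ Conn S R := by
  have ho' : orderOf (⟨x, hx⟩ : compStab S) = p := by rw [← Subgroup.orderOf_coe]; exact ho
  obtain ⟨P', hP'⟩ := (isPGroup_zpowers ho').exists_le_sylow
  obtain ⟨h, hh⟩ := MulAction.exists_smul_eq (compStab S) (S.subtype (le_compStab S)) P'
  rw [Sylow.smul_subtype] at hh
  refine ⟨h • S, ?_, h.2⟩
  have h1 : (⟨x, hx⟩ : compStab S) ∈ P' := hP' (mem_zpowers _)
  rw [← hh] at h1
  exact h1

theorem exists_SPE_of_not_conn [Fact p.Prime] [Finite G] {S T : Sylow p G} (hST : ¬ Conn S T) :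
    SPE p (compStab S) := by
  have hp : p.Prime := Fact.out
  refine ⟨?_, ?_, ?_⟩
  · intro htop
    obtain ⟨g, hg⟩ := MulAction.exists_smul_eq G S T
    apply hST
    rw [← hg]
    exact mem_compStab.mp (htop ▸ mem_top g)
  · have hSne : (S : Subgroup G) ≠ ⊥ := by
      intro hS
      apply hST
      have hc : Nat.card (T : Subgroup G) = 1 := by
        rw [T.card_eq_multiplicity, ← S.card_eq_multiplicity, hS]; simp
      have hT : (T : Subgroup G) = ⊥ := Subgroup.card_eq_one.mp hc
      have : S = T := Sylow.ext (hS.trans hT.symm)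
      rw [this]; exact Relation.ReflTransGen.refl
    obtain ⟨x, hx, ho⟩ := exists_orderOf_eq S.isPGroup' hSne
    have h1 : zpowers x ≤ compStab S := zpowers_le.mpr (le_compStab S hx)
    have := Subgroup.card_dvd_of_le h1
    rwa [Nat.card_zpowers, ho] at this
  · intro g hg hdvd
    apply hg
    obtain ⟨x, hx, ho⟩ := exists_orderOf_eq_of_dvd hdvd
    have hx1 : x ≠ 1 := by
      rintro rfl
      rw [orderOf_one] at ho
      exact hp.one_lt.ne ho
    obtain ⟨R1, hxR1, hc1⟩ := exists_sylow_of_mem_compStab S hx.1 ho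
    obtain ⟨y, hy, hyx⟩ := hx.2
    have hyx' : g * y * g⁻¹ = x := hyx
    have hyo : orderOf y = p := by
      have e : x = MulAut.conj g y := hyx.symm
      rw [e, MulEquiv.orderOf_eq] at ho
      exact ho
    obtain ⟨R2, hyR2, hc2⟩ := exists_sylow_of_mem_compStab S hy hyo
    have hxR2 : x ∈ (g • R2 : Sylow p G) := by
      refine mem_smul_sylow.mpr ?_
      rw [← hyx']
      have e : g⁻¹ * (g * y * g⁻¹) * g = y := by group
      rw [e]; exact hyR2
    exact mem_compStab.mpr ((hc1.trans (conn_of_mem hxR1 hxR2 hx1)).trans (Conn.smul hc2 g).symm)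

theorem not_conn_of_SPE [Fact p.Prime] [Finite G] {H : Subgroup G} (h : SPE p H) :
    ¬ ∀ S T : Sylow p G, Conn S T := by
  intro hall
  obtain ⟨S, hS⟩ := h.exists_sylow_le
  have hle : ∀ R : Sylow p G, Conn S R → (R : Subgroup G) ≤ H := by
    intro R hR
    induction hR with
    | refl => exact hS
    | @tail b c _ hbc ih =>
      have hpg : IsPGroup p ↥((b : Subgroup G) ⊓ (c : Subgroup G)) := b.isPGroup'.to_le inf_le_left
      obtain ⟨x, hx, ho⟩ := exists_orderOf_eq hpg hbc.2
      exact h.le_of_mem c.isPGroup' hx.2 (ih hx.1) ho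
  obtain ⟨g, hg⟩ : ∃ g : G, g ∉ H := by
    by_contra hcon
    push Not at hcon
    exact h.1 (eq_top_iff.mpr (fun x _ => hcon x))
  obtain ⟨x, hxH, ho⟩ := exists_orderOf_eq_of_dvd h.2.1
  obtain ⟨Q, hQ⟩ := (isPGroup_zpowers ho).exists_le_sylow
  have hxQ : x ∈ Q := hQ (mem_zpowers x)
  have h1 : g * x * g⁻¹ ∈ (g • Q : Sylow p G) := by
    refine mem_smul_sylow.mpr ?_
    have e : g⁻¹ * (g * x * g⁻¹) * g = x := by group
    rw [e]; exact hxQ
  have h2 : g * x * g⁻¹ ∈ H := hle _ (hall S _) h1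
  have ho2 : orderOf (g * x * g⁻¹) = p := by
    have e : g * x * g⁻¹ = MulAut.conj g x := rfl
    rw [e, MulEquiv.orderOf_eq, ho]
  apply hg
  refine h.mem_of_conj h2 ho2 ?_
  have e : g⁻¹ * (g * x * g⁻¹) * g = x := by group
  rw [e]; exact hxH

theorem not_chainConnected_iff [Fact p.Prime] [Finite G] :
    ¬ Cfsg.IsSylowChainConnected p G ↔ ∃ H : Subgroup G, SPE p H := by
  rw [chain_iff]
  constructor
  · intro h
    push Not at h
    obtain ⟨S, T, hST⟩ := h
    exact ⟨_, exists_SPE_of_not_conn hST⟩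
  · rintro ⟨H, hH⟩
    exact not_conn_of_SPE hH

end Cfsg.Agent.Lib.Helper57Chain
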