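import Cfsg.Agent.Lib.Helper13UDefs
import Cfsg.Agent.Lib.Helper67AschField
import Cfsg.Agent.Lib.Helper97USub

set_option autoImplicit false

/-! PROJECT 4 = ASCH-U, piece `field`: an adjoint-closed normalised field strictly containing the scalars contains
one of odd prime degree. -/

namespace Cfsg.Agent.Lib.Helper60UField

open Cfsg Cfsg.Geo Matrix
open Cfsg.Agent.Lib.Helper97AschBase Cfsg.Agent.Lib.Helper97UBase Cfsg.Agent.Lib.Helper95Herm
  Cfsg.Agent.Lib.Helper98AschDefs Cfsg.Agent.Lib.Helper13UDefs Cfsg.Agent.Lib.Helper67AschField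
  Cfsg.Agent.Lib.Helper97USub
open scoped MatrixGroups

/-- an involutive automorphism of the field with `q ^ (2 k)` elements which moves an element of the subfield with
`q ^ 2` elements: `k` is odd. -/
theorem odd_of_invol_field {L : Type*} [Field L] [Finite L] (τ : L ≃+* L) (hτ : ∀ a, τ (τ a) = a)
    (q k : ℕ) (hq : 1 < q) (hL : Nat.card L = q ^ (2 * k)) (c : L) (hc : c ^ (q ^ 2) = c)
    (hτc : τ c ≠ c) : Odd k := by
  classical
  have : Fintype L := Fintype.ofFinite L
  have h1 : τ ≠ RingEquiv.refl L := by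
    intro h
    apply hτc
    rw [h]
    rfl
  obtain ⟨L₁, hL₁, hcard⟩ := fix_sigma τ h1 hτ
  have hc1 : Nat.card L₁ = q ^ k := by
    rw [← Nat.card_eq_fintype_card, hL, mul_comm, pow_mul] at hcard
    exact (Nat.pow_left_injective (n := 2) (by norm_num) hcard).symm
  by_contra hodd
  rw [Nat.not_odd_iff_even] at hodd
  obtain ⟨m, hm⟩ := hodd
  have hk0 : 0 < k := by
    rcases Nat.eq_zero_or_pos k with h0 | h0
    · exfalso
      rw [h0, mul_zero, pow_zero] at hL
      have := Finite.one_lt_card (α := L)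
      omega
    · exact h0
  have hfix := card_fix_field (L := L) q (2 * k) k hq hL (Dvd.intro_left 2 rfl) hk0
  have hck : c ^ (q ^ k) = c := by
    have h2 : ∀ j, c ^ ((q ^ 2) ^ j) = c := by
      intro j
      induction j with
      | zero => simp
      | succ j ih => rw [pow_succ, pow_mul, ih, hc]
    rw [hm, ← two_mul, pow_mul]
    exact h2 m
  have : Fintype L₁ := Fintype.ofFinite _
  let ι : L₁ → {x : L // x ^ (q ^ k) = x} := fun a => ⟨a.1, by
    have h3 := FiniteField.pow_card a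
    rw [← Nat.card_eq_fintype_card, hc1] at h3
    exact congrArg Subtype.val h3⟩
  have hinj : Function.Injective ι := by
    intro a b hab
    exact Subtype.ext (congrArg (fun x => x.1) hab)
  have hbij : Function.Bijective ι := hinj.bijective_of_nat_card_le (by rw [hfix, hc1])
  obtain ⟨a, ha⟩ := hbij.2 ⟨c, hck⟩
  apply hτc
  rw [hL₁]
  have h4 : (a : L) = c := congrArg (fun x => x.1) ha
  rw [← h4]
  exact a.2

theorem odd_of_invol {L : Type*} [Ring L] [Finite L] [Nontrivial L]
    (hcomm : ∀ a b : L, a * b = b * a) (hinv : ∀ a : L, a ≠ 0 → ∃ b, a * b = 1)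
    (τ : L ≃+* L) (hτ : ∀ a, τ (τ a) = a)
    (q k : ℕ) (hq : 1 < q) (hL : Nat.card L = q ^ (2 * k)) (c : L) (hc : c ^ (q ^ 2) = c)
    (hτc : τ c ≠ c) : Odd k := by
  have hF : IsField L := ⟨exists_pair_ne L, hcomm, fun h => hinv _ h⟩
  let _ : Field L := hF.toField
  exact odd_of_invol_field τ hτ q k hq hL c hc hτc

variable {n : ℕ} {F : Type*} [Field F]

/-- the subfield of degree `r` of a field subalgebra -/
theorem field_sub [Fintype F] [NeZero n]
    {K : Subalgebra F (Matrix (Fin n) (Fin n) F)}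
    (hcomm : ∀ x ∈ K, ∀ y ∈ K, x * y = y * x) (hinv : ∀ x ∈ K, x ≠ 0 → ∃ y ∈ K, x * y = 1)
    {r : ℕ} (hr0 : 0 < r) (hrk : r ∣ Module.finrank F K) :
    ∃ K' : Subalgebra F (Matrix (Fin n) (Fin n) F), IsFieldSubalgebra r K' ∧
      ∀ x, x ∈ K' ↔ x ∈ K ∧ x ^ (Fintype.card F ^ r) = x := by
  classical
  set q := Fintype.card F with hq
  have hq1 : 1 < q := Fintype.one_lt_card
  set k := Module.finrank F K with hk
  obtain ⟨p, hpc⟩ := CharP.exists F
  obtain ⟨f, hp, hqf⟩ := FiniteField.card F p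
  have : Fact p.Prime := ⟨hp⟩
  have hN : q ^ r = p ^ ((f : ℕ) * r) := by rw [hq, hqf, pow_mul]
  let K' : Subalgebra F (Matrix (Fin n) (Fin n) F) :=
    { carrier := {x | x ∈ K ∧ x ^ (q ^ r) = x}
      mul_mem' := by
        rintro a b ⟨ha, ha'⟩ ⟨hb, hb'⟩
        refine ⟨K.mul_mem ha hb, ?_⟩
        rw [(show Commute a b from hcomm a ha b hb).mul_pow, ha', hb']
      add_mem' := by
        rintro a b ⟨ha, ha'⟩ ⟨hb, hb'⟩
        refine ⟨K.add_mem ha hb, ?_⟩
        rw [hN] at ha' hb' ⊢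
        rw [add_pow_char_pow_of_commute _ _ (show Commute a b from hcomm a ha b hb), ha', hb']
      algebraMap_mem' := by
        intro c
        refine ⟨K.algebraMap_mem c, ?_⟩
        rw [← map_pow, hq, FiniteField.pow_card_pow] }
  have hmem : ∀ x, x ∈ K' ↔ x ∈ K ∧ x ^ (q ^ r) = x := fun x => Iff.rfl
  refine ⟨K', ⟨?_, ?_, ?_⟩, hmem⟩
  · intro x hx y hy
    exact hcomm x hx.1 y hy.1
  · intro x hx hx0
    obtain ⟨y, hy, hxy⟩ := hinv x hx.1 hx0
    refine ⟨y, ⟨hy, ?_⟩, hxy⟩
    have h1 : x * y ^ (q ^ r) = 1 := by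
      have h2 : (x * y) ^ (q ^ r) = 1 := by rw [hxy, one_pow]
      rwa [(show Commute x y from hcomm x hx.1 y hy).mul_pow, hx.2] at h2
    have hyx : y * x = 1 := by rw [hcomm y hy x hx.1, hxy]
    calc y ^ (q ^ r) = (y * x) * y ^ (q ^ r) := by rw [hyx, one_mul]
      _ = y * (x * y ^ (q ^ r)) := by rw [mul_assoc]
      _ = y := by rw [h1, mul_one]
  · -- the dimension
    have hKcard : Nat.card K = q ^ k := by
      rw [Module.natCard_eq_pow_finrank (K := F), Nat.card_eq_fintype_card]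
    have hfix : Nat.card {x : K // x ^ (q ^ r) = x} = q ^ r := by
      apply card_fix (fun a b => Subtype.ext (hcomm a a.2 b b.2)) _ q k r hq1 hKcard hrk hr0
      intro a ha
      obtain ⟨y, hy, hxy⟩ := hinv a a.2 (fun h => ha (Subtype.ext h))
      exact ⟨⟨y, hy⟩, Subtype.ext hxy⟩
    have e : K' ≃ {x : K // x ^ (q ^ r) = x} :=
      { toFun := fun x => ⟨⟨x.1, x.2.1⟩, Subtype.ext x.2.2⟩
        invFun := fun x => ⟨x.1.1, x.1.2, congrArg Subtype.val x.2⟩
        left_inv := fun x => rfl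
        right_inv := fun x => rfl }
    have h1 : Nat.card K' = q ^ r := by rw [Nat.card_congr e, hfix]
    rw [Module.natCard_eq_pow_finrank (K := F), Nat.card_eq_fintype_card] at h1
    exact Nat.pow_right_injective hq1 h1

variable {σ : F ≃+* F} {f : (Fin n → F) → (Fin n → F) → F}

/-- `M'` is the adjoint of `M` -/
def IsAdjU (f : (Fin n → F) → (Fin n → F) → F) (M M' : Matrix (Fin n) (Fin n) F) : Prop :=
  ∀ u v, f (M *ᵥ u) v = f u (M' *ᵥ v)

lemma IsAdjU.unique (hf : IsUnitaryForm σ f) {M A B : Matrix (Fin n) (Fin n) F}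
    (hA : IsAdjU f M A) (hB : IsAdjU f M B) : A = B := by
  have h := herm_of_unitary hf
  apply Cfsg.Agent.Lib.Helper97AschClifford.matrix_eq_of_mulVec_eq
  intro v
  by_contra hne
  obtain ⟨x, hx⟩ := (hf.nondegenerate _ (sub_ne_zero.mpr hne)).1
  apply hx
  rw [h.sub_right, ← hA, ← hB, sub_self]

lemma IsAdjU.symm (hf : IsUnitaryForm σ f) {M A : Matrix (Fin n) (Fin n) F}
    (hA : IsAdjU f M A) : IsAdjU f A M := by
  intro u v
  rw [hf.herm, ← hA, ← hf.herm]

lemma IsAdjU.mul {M A N B : Matrix (Fin n) (Fin n) F}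
    (hA : IsAdjU f M A) (hB : IsAdjU f N B) : IsAdjU f (M * N) (B * A) := by
  intro u v
  rw [← Matrix.mulVec_mulVec, ← Matrix.mulVec_mulVec, hA, hB]

lemma IsAdjU.add (hf : IsUnitaryForm σ f) {M A N B : Matrix (Fin n) (Fin n) F}
    (hA : IsAdjU f M A) (hB : IsAdjU f N B) : IsAdjU f (M + N) (A + B) := by
  have h := herm_of_unitary hf
  intro u v
  rw [Matrix.add_mulVec, Matrix.add_mulVec, h.add_left, h.add_right, hA, hB]

lemma IsAdjU.one : IsAdjU f (1 : Matrix (Fin n) (Fin n) F) 1 := by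
  intro u v
  rw [Matrix.one_mulVec, Matrix.one_mulVec]

lemma IsAdjU.scalar (hf : IsUnitaryForm σ f) (c : F) :
    IsAdjU f (algebraMap F (Matrix (Fin n) (Fin n) F) c) (algebraMap F (Matrix (Fin n) (Fin n) F) (σ c)) := by
  have h := herm_of_unitary hf
  intro u v
  rw [Algebra.algebraMap_eq_smul_one, Algebra.algebraMap_eq_smul_one, Matrix.smul_mulVec, Matrix.smul_mulVec,
    Matrix.one_mulVec, Matrix.one_mulVec, h.smul_left, h.smul_right]
  show c * f u v = σ (σ c) * f u v
  rw [hf.involutive]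

lemma IsAdjU.pow {M A : Matrix (Fin n) (Fin n) F} (hA : IsAdjU f M A) (k : ℕ) :
    IsAdjU f (M ^ k) (A ^ k) := by
  induction k with
  | zero => simpa using IsAdjU.one
  | succ k ih =>
    rw [pow_succ, pow_succ']
    exact ih.mul hA

/-- [field] an adjoint-closed normalised field strictly containing the scalars contains one of odd prime degree. -/
theorem field_star [Fintype F] [NeZero n] {q : ℕ} (hU : US σ f q) {H : Subgroup (GL (Fin n) F)}
    {K : Subalgebra F (Matrix (Fin n) (Fin n) F)} (hK : NzA H K)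
    (hcomm : ∀ x ∈ K, ∀ y ∈ K, x * y = y * x) (hinv : ∀ x ∈ K, x ≠ 0 → ∃ y ∈ K, x * y = 1)
    (hstar : IsAdjointClosedFor f K)
    (hne : ∃ x ∈ K, ∀ c : F, x ≠ c • (1 : Matrix (Fin n) (Fin n) F)) :
    ∃ (r : ℕ) (K' : Subalgebra F (Matrix (Fin n) (Fin n) F)), r.Prime ∧ Odd r ∧ IsFieldSubalgebra r K' ∧
      IsAdjointClosedFor f K' ∧ H ≤ subalgebraNormalizer K' := by
  classical
  have hf := hU.unitary
  set k := Module.finrank F K with hk
  have hk1 : k ≠ 1 := by
    intro h1
    have h2 : K = ⊥ := Subalgebra.finrank_eq_one_iff.mp h1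
    obtain ⟨x, hx, hxc⟩ := hne
    rw [h2, Algebra.mem_bot] at hx
    obtain ⟨c, rfl⟩ := hx
    exact hxc c (Algebra.algebraMap_eq_smul_one c)
  have hq1 : 1 < q := by
    have h1 : 1 < Fintype.card F := Fintype.one_lt_card
    rw [hU.card] at h1
    by_contra h2
    have h3 : q ≤ 1 := by omega
    have h4 : q ^ 2 ≤ 1 ^ 2 := Nat.pow_le_pow_left h3 2
    omega
  -- the adjoint as an automorphism of `K`
  let t : K → K := fun a => ⟨Classical.choose (hstar a a.2), (Classical.choose_spec (hstar a a.2)).1⟩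
  have ht : ∀ a : K, IsAdjU f (a : Matrix (Fin n) (Fin n) F) (t a : Matrix (Fin n) (Fin n) F) :=
    fun a => (Classical.choose_spec (hstar a a.2)).2
  have htt : ∀ a, t (t a) = a := fun a => Subtype.ext ((ht (t a)).unique hf ((ht a).symm hf))
  let τ : K ≃+* K :=
    { toFun := t
      invFun := t
      left_inv := htt
      right_inv := htt
      map_mul' := by
        intro a b
        apply Subtype.ext
        have h1 := (ht a).mul (ht b)
        rw [hcomm _ (t b).2 _ (t a).2] at h1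
        exact (ht (a * b)).unique hf h1
      map_add' := by
        intro a b
        apply Subtype.ext
        exact (ht (a + b)).unique hf ((ht a).add hf (ht b)) }
  have hτ : ∀ a, τ a = t a := fun a => rfl
  have hkodd : Odd k := by
    have hKcard : Nat.card K = q ^ (2 * k) := by
      rw [Module.natCard_eq_pow_finrank (K := F), Nat.card_eq_fintype_card, hU.card, pow_mul]
    obtain ⟨c₀, hc₀⟩ : ∃ c₀, σ c₀ ≠ c₀ := by
      by_contra hcon
      push Not at hcon
      apply hf.ne_refl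
      ext a
      exact hcon a
    refine odd_of_invol (L := K) (fun a b => Subtype.ext (hcomm a a.2 b b.2)) ?_ τ htt q k hq1 hKcard
      (algebraMap F K c₀) ?_ ?_
    · intro a ha
      obtain ⟨y, hy, hxy⟩ := hinv a a.2 (fun h => ha (Subtype.ext h))
      exact ⟨⟨y, hy⟩, Subtype.ext hxy⟩
    · rw [← map_pow, ← hU.card, FiniteField.pow_card]
    · intro h1
      apply hc₀
      have h2 : (t (algebraMap F K c₀) : Matrix (Fin n) (Fin n) F) =
          algebraMap F (Matrix (Fin n) (Fin n) F) (σ c₀) :=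
        (ht (algebraMap F K c₀)).unique hf (IsAdjU.scalar hf c₀)
      have h3 : (t (algebraMap F K c₀) : Matrix (Fin n) (Fin n) F) =
          algebraMap F (Matrix (Fin n) (Fin n) F) c₀ := congrArg Subtype.val h1
      rw [h2] at h3
      exact (algebraMap F (Matrix (Fin n) (Fin n) F)).injective h3
  set r := k.minFac with hr
  have hrp : r.Prime := Nat.minFac_prime hk1
  have hrk : r ∣ k := Nat.minFac_dvd k
  obtain ⟨K', hK', hmem⟩ := field_sub hcomm hinv hrp.pos hrk
  refine ⟨r, K', hrp, hkodd.of_dvd_nat hrk, hK', ?_, ?_⟩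
  · intro x hx
    rw [hmem] at hx
    obtain ⟨hxK, hxp⟩ := hx
    obtain ⟨y, hy⟩ : ∃ y : K, y = t ⟨x, hxK⟩ := ⟨_, rfl⟩
    have hxy : IsAdjU f x (y : Matrix (Fin n) (Fin n) F) := by
      rw [hy]
      exact ht ⟨x, hxK⟩
    refine ⟨y, ?_, hxy⟩
    rw [hmem]
    refine ⟨y.2, ?_⟩
    have h1 := hxy.pow (Fintype.card F ^ r)
    rw [hxp] at h1
    exact h1.unique hf hxy
  · intro h hh
    have key : ∀ g ∈ H, ∀ x ∈ K', (g : Matrix (Fin n) (Fin n) F) * x *
        ((g⁻¹ : GL (Fin n) F) : Matrix (Fin n) (Fin n) F) ∈ K' := by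
      intro g hg x hx
      rw [hmem] at hx ⊢
      refine ⟨hK g hg x hx.1, ?_⟩
      rw [Units.conj_pow, hx.2]
    intro x
    constructor
    · exact key h hh x
    · intro hx
      have h1 := key h⁻¹ (H.inv_mem hh) _ hx
      rw [inv_inv] at h1
      have h2 : ((h⁻¹ : GL (Fin n) F) : Matrix (Fin n) (Fin n) F) *
          ((h : Matrix (Fin n) (Fin n) F) * x * ((h⁻¹ : GL (Fin n) F) : Matrix (Fin n) (Fin n) F)) *
          (h : Matrix (Fin n) (Fin n) F) = x := by
        simp only [mul_assoc, Units.inv_mul, mul_one, Units.inv_mul_cancel_left]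
      rwa [h2] at h1

end Cfsg.Agent.Lib.Helper60UField
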