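import Cfsg.Agent.Lib.Helper67AschD
import Cfsg.Agent.Lib.Helper60UField

set_option autoImplicit false

/-! Transvections over an intermediate field: `K₀ < K` fields of matrices; some `K₀`-linear transvection of
determinant one does not normalise `K`. -/

namespace Cfsg.Agent.Lib.Helper57FieldTv

open Cfsg Cfsg.Geo Matrix
open scoped MatrixGroups

theorem exists_func {E V : Type*} [Field E] [AddCommGroup V] [Module E V] [FiniteDimensional E V]
    (h3 : 3 ≤ Module.finrank E V) :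
    ∃ (ψ : V → E) (a : V), a ≠ 0 ∧ ψ a = 0 ∧ (∀ x y, ψ (x + y) = ψ x + ψ y) ∧
      (∀ (c : E) x, ψ (c • x) = c * ψ x) ∧ (∃ y, ψ y = 1) ∧
      ∀ κ : V → V, (∀ x y, κ (x + y) = κ x + κ y) → (∀ (c : E) x, κ (c • x) = c • κ x) →
        ∃ x, x ≠ 0 ∧ ψ x = 0 ∧ ψ (κ x) = 0 := by
  have : Nontrivial V := Module.nontrivial_of_finrank_pos (R := E) (by omega)
  obtain ⟨a, ha⟩ := exists_ne (0 : V)
  have hlt : Submodule.span E {a} < ⊤ := by
    rw [lt_top_iff_ne_top]
    intro htop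
    have h1 := finrank_span_singleton (K := E) ha
    rw [htop, finrank_top] at h1
    omega
  obtain ⟨f, hf0, hf⟩ := Submodule.exists_dual_map_eq_bot_of_lt_top hlt inferInstance
  have hfa : f a = 0 := by
    have : f a ∈ (Submodule.span E {a}).map f := ⟨a, Submodule.mem_span_singleton_self a, rfl⟩
    rw [hf] at this
    exact this
  obtain ⟨y₀, hy₀⟩ : ∃ y₀, f y₀ ≠ 0 := by
    by_contra hcon
    push Not at hcon
    exact hf0 (LinearMap.ext hcon)
  refine ⟨f, a, ha, hfa, f.map_add, fun c x => by rw [map_smul, smul_eq_mul], ⟨(f y₀)⁻¹ • y₀, ?_⟩, ?_⟩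
  · rw [map_smul, smul_eq_mul, inv_mul_cancel₀ hy₀]
  intro κ hadd hsmul
  let κL : V →ₗ[E] V := { toFun := κ, map_add' := hadd, map_smul' := hsmul }
  have hker : LinearMap.ker (f.prod (f ∘ₗ κL)) ≠ ⊥ := by
    apply LinearMap.ker_ne_bot_of_finrank_lt
    rw [Module.finrank_prod, Module.finrank_self]
    omega
  obtain ⟨x, hx, hx0⟩ := Submodule.exists_mem_ne_zero_of_ne_bot hker
  rw [LinearMap.mem_ker, LinearMap.prod_apply, Prod.mk_eq_zero] at hx
  exact ⟨x, hx0, hx.1, hx.2⟩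

theorem exists_func_card {E V : Type*} [Field E] [Finite E] [AddCommGroup V] [Module E V] [Finite V]
    (h3 : Nat.card E ^ 3 ≤ Nat.card V) :
    ∃ (ψ : V → E) (a : V), a ≠ 0 ∧ ψ a = 0 ∧ (∀ x y, ψ (x + y) = ψ x + ψ y) ∧
      (∀ (c : E) x, ψ (c • x) = c * ψ x) ∧ (∃ y, ψ y = 1) ∧
      ∀ κ : V → V, (∀ x y, κ (x + y) = κ x + κ y) → (∀ (c : E) x, κ (c • x) = c • κ x) →
        ∃ x, x ≠ 0 ∧ ψ x = 0 ∧ ψ (κ x) = 0 := by
  have : FiniteDimensional E V := Module.Finite.of_finite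
  apply exists_func
  rw [Module.natCard_eq_pow_finrank (K := E) (V := V)] at h3
  exact (Nat.pow_le_pow_iff_right Finite.one_lt_card).mp h3

theorem exists_func_ring {L V : Type*} [Ring L] [Finite L] [AddCommGroup V] [iM : Module L V] [Finite V]
    (hL : IsField L) (h3 : Nat.card L ^ 3 ≤ Nat.card V) :
    ∃ (ψ : V → L) (a : V), a ≠ 0 ∧ ψ a = 0 ∧ (∀ x y, ψ (x + y) = ψ x + ψ y) ∧
      (∀ (c : L) x, ψ (c • x) = c * ψ x) ∧ (∃ y, ψ y = 1) ∧
      ∀ κ : V → V, (∀ x y, κ (x + y) = κ x + κ y) → (∀ (c : L) x, κ (c • x) = c • κ x) →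
        ∃ x, x ≠ 0 ∧ ψ x = 0 ∧ ψ (κ x) = 0 :=
  @exists_func_card L V hL.toField _ _ iM _ h3

variable {n : ℕ} {F : Type*} [Field F]

lemma mat_ext {A B : Matrix (Fin n) (Fin n) F} (h : ∀ x, A *ᵥ x = B *ᵥ x) : A = B :=
  Matrix.toLin'.injective (LinearMap.ext h)

lemma eq_zero_of_mulVec {r : ℕ} {K : Subalgebra F (Matrix (Fin n) (Fin n) F)} (hK : IsFieldSubalgebra r K)
    {z : Matrix (Fin n) (Fin n) F} (hz : z ∈ K) {x : Fin n → F} (hx : x ≠ 0) (h : z *ᵥ x = 0) : z = 0 := by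
  by_contra hne
  obtain ⟨w, hw, hzw⟩ := hK.inv z hz hne
  apply hx
  have : (w * z) *ᵥ x = x := by rw [hK.comm w hw z hz, hzw, Matrix.one_mulVec]
  rw [← this, ← Matrix.mulVec_mulVec, h, Matrix.mulVec_zero]

lemma det_one_add_of_sq [Fintype F] [NeZero n] {N : Matrix (Fin n) (Fin n) F} (hN : N * N = 0) :
    (1 + N).det = 1 := by
  obtain ⟨p, hp⟩ := CharP.exists F
  have hpp : p.Prime := (CharP.char_is_prime_or_zero F p).resolve_right (CharP.char_ne_zero_of_finite F p)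
  have : Fact p.Prime := ⟨hpp⟩
  have h1 : (1 + N) ^ p = 1 := by
    rw [add_pow_char_of_commute _ (Commute.one_left N), one_pow]
    have : N ^ p = 0 := by
      obtain ⟨k, hk⟩ : ∃ k, p = 2 + k := ⟨p - 2, by have := hpp.two_le; omega⟩
      rw [hk, pow_add, pow_two, hN, zero_mul]
    rw [this, add_zero]
  have h2 : (1 + N).det ^ p = 1 := by rw [← Matrix.det_pow, h1, Matrix.det_one]
  apply frobenius_inj F p
  rw [frobenius_def, frobenius_def, h2, one_pow]

theorem exists_tv [Fintype F] {s r : ℕ} (K₀ K : Subalgebra F (Matrix (Fin n) (Fin n) F))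
    (hK₀ : IsFieldSubalgebra s K₀) (hK : IsFieldSubalgebra r K) (hle : K₀ ≤ K) (hsr : s < r)
    (hs0 : 0 < s) (h3 : 3 * s ≤ n) :
    ∃ t : GL (Fin n) F, t ∈ specialLinear (Fin n) F ∧ t ∈ subalgebraNormalizer K₀ ∧
      t ∉ subalgebraNormalizer K := by
  classical
  have : NeZero n := ⟨by omega⟩
  have hKf : IsField K₀ := by
    refine ⟨exists_pair_ne K₀, fun a b => Subtype.ext (hK₀.comm a a.2 b b.2), ?_⟩
    intro a ha
    obtain ⟨y, hy, hxy⟩ := hK₀.inv a a.2 (fun h => ha (Subtype.ext h))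
    exact ⟨⟨y, hy⟩, Subtype.ext hxy⟩
  have hcard : Nat.card K₀ ^ 3 ≤ Nat.card (Fin n → F) := by
    rw [Module.natCard_eq_pow_finrank (K := F) (V := K₀), hK₀.finrank_eq,
      Module.natCard_eq_pow_finrank (K := F) (V := Fin n → F), Module.finrank_fin_fun, ← pow_mul]
    exact Nat.pow_le_pow_right Nat.card_pos (by omega)
  obtain ⟨ψ, a, ha, hψa, hadd, hsmul, ⟨y, hy⟩, hκ⟩ :=
    exists_func_ring (L := K₀) (V := Fin n → F) hKf hcard
  have hsm : ∀ (κ : K₀) (v : Fin n → F), κ • v = (κ : Matrix (Fin n) (Fin n) F) *ᵥ v := fun _ _ => rfl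
  have hψF : ∀ (c : F) x, ((ψ (c • x) : K₀) : Matrix (Fin n) (Fin n) F) =
      c • ((ψ x : K₀) : Matrix (Fin n) (Fin n) F) := by
    intro c x
    have e : c • x = (algebraMap F K₀ c) • x := by
      rw [hsm]
      simp [Algebra.algebraMap_eq_smul_one, Matrix.smul_mulVec]
    rw [e, hsmul]
    simp [Algebra.algebraMap_eq_smul_one]
  let ν : (Fin n → F) →ₗ[F] (Fin n → F) :=
    { toFun := fun x => ((ψ x : K₀) : Matrix (Fin n) (Fin n) F) *ᵥ a
      map_add' := fun x y => by rw [hadd, Subalgebra.coe_add, Matrix.add_mulVec]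
      map_smul' := fun c x => by rw [hψF, Matrix.smul_mulVec, RingHom.id_apply] }
  obtain ⟨N, hNdef⟩ : ∃ N, N = LinearMap.toMatrix' ν := ⟨_, rfl⟩
  have hN : ∀ x, N *ᵥ x = ((ψ x : K₀) : Matrix (Fin n) (Fin n) F) *ᵥ a := by
    intro x
    rw [hNdef, LinearMap.toMatrix'_mulVec]
    rfl
  have hψk : ∀ (k : K₀) x, ψ ((k : Matrix (Fin n) (Fin n) F) *ᵥ x) = k * ψ x := fun k x => hsmul k x
  have hNN : N * N = 0 := by
    apply mat_ext
    intro x
    rw [← Matrix.mulVec_mulVec, hN x, hN, hψk, hψa, mul_zero]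
    simp
  have hcomm : ∀ k ∈ K₀, N * k = k * N := by
    intro k hk
    apply mat_ext
    intro x
    rw [← Matrix.mulVec_mulVec, ← Matrix.mulVec_mulVec, hN, hN, hψk ⟨k, hk⟩, Subalgebra.coe_mul,
      Matrix.mulVec_mulVec]
  let t : GL (Fin n) F := ⟨1 + N, 1 - N, by
    rw [mul_sub, mul_one, add_mul, one_mul, hNN]; abel, by
    rw [sub_mul, one_mul, mul_add, mul_one, hNN]; abel⟩
  have htv : (t : Matrix (Fin n) (Fin n) F) = 1 + N := rfl
  have htiv : ((t⁻¹ : GL (Fin n) F) : Matrix (Fin n) (Fin n) F) = 1 - N := rfl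
  have htcomm : ∀ k ∈ K₀, (t : Matrix (Fin n) (Fin n) F) * k * ((t⁻¹ : GL (Fin n) F) : Matrix (Fin n) (Fin n) F)
      = k := by
    intro k hk
    have e : (t : Matrix (Fin n) (Fin n) F) * k = k * (t : Matrix (Fin n) (Fin n) F) := by
      rw [htv, add_mul, mul_add, one_mul, mul_one, hcomm k hk]
    rw [e, mul_assoc, Units.mul_inv, mul_one]
  refine ⟨t, ?_, ?_, ?_⟩
  · show Matrix.GeneralLinearGroup.det t = 1
    ext
    rw [Matrix.GeneralLinearGroup.val_det_apply, htv, det_one_add_of_sq hNN]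
    rfl
  · intro k
    constructor
    · intro hk
      rw [htcomm k hk]
      exact hk
    · intro hk
      have h1 := htcomm _ hk
      have h2 : (t : Matrix (Fin n) (Fin n) F) * k * ((t⁻¹ : GL (Fin n) F) : Matrix (Fin n) (Fin n) F) = k := by
        have h3 := congrArg (fun M => ((t⁻¹ : GL (Fin n) F) : Matrix (Fin n) (Fin n) F) * M *
          (t : Matrix (Fin n) (Fin n) F)) h1
        simp only [mul_assoc, Units.inv_mul, mul_one, Units.inv_mul_cancel_left] at h3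
        rw [mul_assoc]
        exact h3.symm ▸ rfl
      rw [← h2]
      exact hk
  · intro ht
    obtain ⟨κ, hκK, hκ0⟩ : ∃ κ ∈ K, κ ∉ K₀ := by
      by_contra hcon
      push Not at hcon
      have : K = K₀ := le_antisymm hcon hle
      have h1 := hK.finrank_eq
      rw [this, hK₀.finrank_eq] at h1
      omega
    have hκ' := (ht κ).mp hκK
    obtain ⟨κ', hκ'def⟩ : ∃ κ', κ' = (t : Matrix (Fin n) (Fin n) F) * κ *
      ((t⁻¹ : GL (Fin n) F) : Matrix (Fin n) (Fin n) F) := ⟨_, rfl⟩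
    rw [← hκ'def] at hκ'
    have hrel : κ' * (t : Matrix (Fin n) (Fin n) F) = (t : Matrix (Fin n) (Fin n) F) * κ := by
      rw [hκ'def, mul_assoc, Units.inv_mul, mul_one]
    obtain ⟨x, hx0, hx1, hx2⟩ := hκ (fun v => κ *ᵥ v) (fun u v => Matrix.mulVec_add _ _ _)
      (fun c v => by
        rw [hsm, hsm, Matrix.mulVec_mulVec, Matrix.mulVec_mulVec, hK.comm κ hκK c (hle c.2)])
    have hNx : N *ᵥ x = 0 := by rw [hN, hx1]; simp
    have hNκx : N *ᵥ (κ *ᵥ x) = 0 := by rw [hN, hx2]; simp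
    have heq : κ' = κ := by
      rw [← sub_eq_zero]
      apply eq_zero_of_mulVec hK (K.sub_mem hκ' hκK) hx0
      have h1 := congrArg (fun M => M *ᵥ x) hrel
      simp only [htv, ← Matrix.mulVec_mulVec, Matrix.add_mulVec, Matrix.one_mulVec, hNx, hNκx,
        add_zero] at h1
      rw [Matrix.sub_mulVec, h1, sub_self]
    rw [heq, htv, mul_add, add_mul, mul_one, one_mul] at hrel
    have hc : κ * N = N * κ := add_left_cancel hrel
    have h1 := congrArg (fun M => M *ᵥ y) hc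
    simp only [← Matrix.mulVec_mulVec] at h1
    rw [hN, hN, hy] at h1
    simp only [Subalgebra.coe_one, Matrix.one_mulVec] at h1
    apply hκ0
    have h2 : κ - ((ψ (κ *ᵥ y) : K₀) : Matrix (Fin n) (Fin n) F) = 0 := by
      apply eq_zero_of_mulVec hK (K.sub_mem hκK (hle (ψ (κ *ᵥ y)).2)) ha
      rw [Matrix.sub_mulVec, h1, sub_self]
    rw [sub_eq_zero.mp h2]
    exact (ψ (κ *ᵥ y)).2

end Cfsg.Agent.Lib.Helper57FieldTv
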