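import Cfsg.Agent.Lib.Helper43R1Defs

set_option autoImplicit false

/-! Project 143, piece `sbasic`. -/

namespace Cfsg.Agent.Lib.Helper57StSbasic

open Cfsg.Agent.Lib.Helper43R1

variable {n : ℕ} {K : Type*} [Field K] {Γ : Type*} [Group Γ] (S : StR n K Γ)

theorem x_zero (i j : Fin n) (hij : i ≠ j) : S.x i j 0 = 1 := by
  have h := S.add i j hij 0 0
  rw [add_zero] at h
  exact (mul_eq_left.mp h.symm)

theorem x_neg (i j : Fin n) (hij : i ≠ j) (t : K) : (S.x i j t)⁻¹ = S.x i j (-t) := by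
  rw [inv_eq_iff_mul_eq_one, ← S.add i j hij, add_neg_cancel, x_zero S i j hij]

theorem w_inv (i j : Fin n) (hij : i ≠ j) (t : K) : (S.w i j t)⁻¹ = S.w i j (-t) := by
  unfold StR.w
  rw [mul_inv_rev, mul_inv_rev, x_neg S i j hij, x_neg S j i hij.symm, mul_assoc, inv_neg, neg_neg]

end Cfsg.Agent.Lib.Helper57StSbasic
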