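import Cfsg.Agent.Lib.Helper57StSbasic

set_option autoImplicit false

/-! Project 143, piece `sbx`.  Two statements of piece `swx` are extra hypotheses at the end. -/

namespace Cfsg.Agent.Lib.Helper57StSbx

open Cfsg.Agent.Lib.Helper43R1 Cfsg.Agent.Lib.Helper57StSbasic

variable {n : ℕ} {K : Type*} [Field K] {Γ : Type*} [Group Γ] (S : StR n K Γ)

theorem w_ij (i j k : Fin n) (hij : i ≠ j) (hik : i ≠ k) (hjk : j ≠ k) (t u : K) (ht : t ≠ 0)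
    (w_ik : ∀ (i j k : Fin n) (_ : i ≠ j) (_ : i ≠ k) (_ : j ≠ k) (t u : K) (_ : t ≠ 0),
      S.w i j t * S.x i k u * (S.w i j t)⁻¹ = S.x j k (-(t⁻¹ * u)))
    (w_kj : ∀ (i j k : Fin n) (_ : i ≠ j) (_ : i ≠ k) (_ : j ≠ k) (t u : K) (_ : t ≠ 0),
      S.w i j t * S.x k j u * (S.w i j t)⁻¹ = S.x k i (t⁻¹ * u)) :
    S.w i j t * S.x i j u * (S.w i j t)⁻¹ = S.x j i (-(t⁻¹ ^ 2 * u)) := by
  have e : S.x i j u = S.x i k u * S.x k j 1 * (S.x i k u)⁻¹ * (S.x k j 1)⁻¹ := by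
    rw [S.chain i k j hik hjk.symm hij, mul_one]
  have e2 : S.w i j t * (S.x i k u * S.x k j 1 * (S.x i k u)⁻¹ * (S.x k j 1)⁻¹) * (S.w i j t)⁻¹ =
      (S.w i j t * S.x i k u * (S.w i j t)⁻¹) * (S.w i j t * S.x k j 1 * (S.w i j t)⁻¹) *
      (S.w i j t * S.x i k u * (S.w i j t)⁻¹)⁻¹ * (S.w i j t * S.x k j 1 * (S.w i j t)⁻¹)⁻¹ := by
    group
  rw [e, e2, w_ik i j k hij hik hjk t u ht, w_kj i j k hij hik hjk t 1 ht,
    S.chain j k i hjk hik.symm hij.symm]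
  congr 1
  ring

end Cfsg.Agent.Lib.Helper57StSbx
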