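import Cfsg.Agent.Lib.Helper57StSbasic

set_option autoImplicit false

/-! Project 143, piece `shx`.  The four statements of piece `swx` are extra hypotheses at the end. -/

namespace Cfsg.Agent.Lib.Helper57StShx

open Cfsg.Agent.Lib.Helper43R1 Cfsg.Agent.Lib.Helper57StSbasic

variable {n : ℕ} {K : Type*} [Field K] {Γ : Type*} [Group Γ] (S : StR n K Γ)

theorem hh_conj (i j : Fin n) (hij : i ≠ j) (a : K) (g : Γ) :
    S.hh i j a * g * (S.hh i j a)⁻¹ =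
      S.w i j a * (S.w i j (-1) * g * (S.w i j (-1))⁻¹) * (S.w i j a)⁻¹ := by
  unfold StR.hh
  rw [← w_inv S i j hij 1]
  group

theorem hh_ik (i j k : Fin n) (hij : i ≠ j) (hik : i ≠ k) (hjk : j ≠ k) (a u : K) (ha : a ≠ 0)
    (w_ik : ∀ (i j k : Fin n) (_ : i ≠ j) (_ : i ≠ k) (_ : j ≠ k) (t u : K) (_ : t ≠ 0),
      S.w i j t * S.x i k u * (S.w i j t)⁻¹ = S.x j k (-(t⁻¹ * u)))
    (w_jk : ∀ (i j k : Fin n) (_ : i ≠ j) (_ : i ≠ k) (_ : j ≠ k) (t u : K) (_ : t ≠ 0),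
      S.w i j t * S.x j k u * (S.w i j t)⁻¹ = S.x i k (t * u)) :
    S.hh i j a * S.x i k u * (S.hh i j a)⁻¹ = S.x i k (a * u) := by
  rw [hh_conj S i j hij, w_ik i j k hij hik hjk _ _ (neg_ne_zero.mpr one_ne_zero),
    w_jk i j k hij hik hjk _ _ ha]
  congr 1
  field_simp

theorem hh_jk (i j k : Fin n) (hij : i ≠ j) (hik : i ≠ k) (hjk : j ≠ k) (a u : K) (ha : a ≠ 0)
    (w_ik : ∀ (i j k : Fin n) (_ : i ≠ j) (_ : i ≠ k) (_ : j ≠ k) (t u : K) (_ : t ≠ 0),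
      S.w i j t * S.x i k u * (S.w i j t)⁻¹ = S.x j k (-(t⁻¹ * u)))
    (w_jk : ∀ (i j k : Fin n) (_ : i ≠ j) (_ : i ≠ k) (_ : j ≠ k) (t u : K) (_ : t ≠ 0),
      S.w i j t * S.x j k u * (S.w i j t)⁻¹ = S.x i k (t * u)) :
    S.hh i j a * S.x j k u * (S.hh i j a)⁻¹ = S.x j k (a⁻¹ * u) := by
  rw [hh_conj S i j hij, w_jk i j k hij hik hjk _ _ (neg_ne_zero.mpr one_ne_zero),
    w_ik i j k hij hik hjk _ _ ha]
  congr 1
  ring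

theorem hh_ki (i j k : Fin n) (hij : i ≠ j) (hik : i ≠ k) (hjk : j ≠ k) (a u : K) (ha : a ≠ 0)
    (w_ki : ∀ (i j k : Fin n) (_ : i ≠ j) (_ : i ≠ k) (_ : j ≠ k) (t u : K) (_ : t ≠ 0),
      S.w i j t * S.x k i u * (S.w i j t)⁻¹ = S.x k j (-(t * u)))
    (w_kj : ∀ (i j k : Fin n) (_ : i ≠ j) (_ : i ≠ k) (_ : j ≠ k) (t u : K) (_ : t ≠ 0),
      S.w i j t * S.x k j u * (S.w i j t)⁻¹ = S.x k i (t⁻¹ * u)) :
    S.hh i j a * S.x k i u * (S.hh i j a)⁻¹ = S.x k i (a⁻¹ * u) := by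
  rw [hh_conj S i j hij, w_ki i j k hij hik hjk _ _ (neg_ne_zero.mpr one_ne_zero),
    w_kj i j k hij hik hjk _ _ ha]
  congr 1
  ring

theorem hh_kj (i j k : Fin n) (hij : i ≠ j) (hik : i ≠ k) (hjk : j ≠ k) (a u : K) (ha : a ≠ 0)
    (w_ki : ∀ (i j k : Fin n) (_ : i ≠ j) (_ : i ≠ k) (_ : j ≠ k) (t u : K) (_ : t ≠ 0),
      S.w i j t * S.x k i u * (S.w i j t)⁻¹ = S.x k j (-(t * u)))
    (w_kj : ∀ (i j k : Fin n) (_ : i ≠ j) (_ : i ≠ k) (_ : j ≠ k) (t u : K) (_ : t ≠ 0),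
      S.w i j t * S.x k j u * (S.w i j t)⁻¹ = S.x k i (t⁻¹ * u)) :
    S.hh i j a * S.x k j u * (S.hh i j a)⁻¹ = S.x k j (a * u) := by
  rw [hh_conj S i j hij, w_kj i j k hij hik hjk _ _ (neg_ne_zero.mpr one_ne_zero),
    w_ki i j k hij hik hjk _ _ ha]
  congr 1
  field_simp

end Cfsg.Agent.Lib.Helper57StShx
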