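import Cfsg.Agent.Lib.Helper57StShx

set_option autoImplicit false

/-! Project 143, piece `sww`.  The statements of piece `swx` are extra hypotheses at the end. -/

namespace Cfsg.Agent.Lib.Helper57StSww

open Cfsg.Agent.Lib.Helper43R1 Cfsg.Agent.Lib.Helper57StSbasic Cfsg.Agent.Lib.Helper57StShx

variable {n : ℕ} {K : Type*} [Field K] {Γ : Type*} [Group Γ] (S : StR n K Γ)

theorem conj3 (g a b c : Γ) :
    g * (a * b * c) * g⁻¹ = (g * a * g⁻¹) * (g * b * g⁻¹) * (g * c * g⁻¹) := by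
  group

theorem w_w_jk (i j k : Fin n) (hij : i ≠ j) (hik : i ≠ k) (hjk : j ≠ k) (u : K) (_hu : u ≠ 0)
    (w_jk : ∀ (i j k : Fin n) (_ : i ≠ j) (_ : i ≠ k) (_ : j ≠ k) (t u : K) (_ : t ≠ 0),
      S.w i j t * S.x j k u * (S.w i j t)⁻¹ = S.x i k (t * u))
    (w_kj : ∀ (i j k : Fin n) (_ : i ≠ j) (_ : i ≠ k) (_ : j ≠ k) (t u : K) (_ : t ≠ 0),
      S.w i j t * S.x k j u * (S.w i j t)⁻¹ = S.x k i (t⁻¹ * u)) :
    S.w i j 1 * S.w j k u * (S.w i j 1)⁻¹ = S.w i k u := by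
  rw [StR.w.eq_def S j k, conj3, w_jk i j k hij hik hjk 1 _ one_ne_zero,
    w_kj i j k hij hik hjk 1 _ one_ne_zero, StR.w.eq_def S i k]
  simp

theorem w_w_jk' (i j k : Fin n) (hij : i ≠ j) (hik : i ≠ k) (hjk : j ≠ k) (u : K) (_hu : u ≠ 0)
    (w_jk : ∀ (i j k : Fin n) (_ : i ≠ j) (_ : i ≠ k) (_ : j ≠ k) (t u : K) (_ : t ≠ 0),
      S.w i j t * S.x j k u * (S.w i j t)⁻¹ = S.x i k (t * u))
    (w_kj : ∀ (i j k : Fin n) (_ : i ≠ j) (_ : i ≠ k) (_ : j ≠ k) (t u : K) (_ : t ≠ 0),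
      S.w i j t * S.x k j u * (S.w i j t)⁻¹ = S.x k i (t⁻¹ * u)) :
    (S.w i j 1)⁻¹ * S.w j k u * S.w i j 1 = S.w i k (-u) := by
  have e : (S.w i j 1)⁻¹ * S.w j k u * S.w i j 1 =
      S.w i j (-1) * S.w j k u * (S.w i j (-1))⁻¹ := by
    rw [← w_inv S i j hij 1, inv_inv]
  have h1 : (-1 : K) ≠ 0 := neg_ne_zero.mpr one_ne_zero
  rw [e, StR.w.eq_def S j k, conj3, w_jk i j k hij hik hjk (-1) _ h1,
    w_kj i j k hij hik hjk (-1) _ h1, StR.w.eq_def S i k]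
  have e1 : (-1 : K) * u = -u := by ring
  have e2 : (-1 : K)⁻¹ * -u⁻¹ = -(-u)⁻¹ := by
    rw [inv_neg, inv_neg, inv_one]; ring
  rw [e1, e2]

theorem w_w_ik (i j k : Fin n) (hij : i ≠ j) (hik : i ≠ k) (hjk : j ≠ k) (u : K) (_hu : u ≠ 0)
    (w_jk : ∀ (i j k : Fin n) (_ : i ≠ j) (_ : i ≠ k) (_ : j ≠ k) (t u : K) (_ : t ≠ 0),
      S.w i j t * S.x j k u * (S.w i j t)⁻¹ = S.x i k (t * u))
    (w_kj : ∀ (i j k : Fin n) (_ : i ≠ j) (_ : i ≠ k) (_ : j ≠ k) (t u : K) (_ : t ≠ 0),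
      S.w i j t * S.x k j u * (S.w i j t)⁻¹ = S.x k i (t⁻¹ * u)) :
    S.w j k 1 * S.w i k u * (S.w j k 1)⁻¹ = S.w i j u := by
  rw [StR.w.eq_def S i k, conj3, w_kj j k i hjk hij.symm hik.symm 1 _ one_ne_zero,
    w_jk j k i hjk hij.symm hik.symm 1 _ one_ne_zero, StR.w.eq_def S i j]
  simp

theorem hh_w_jk (i j k : Fin n) (hij : i ≠ j) (hik : i ≠ k) (hjk : j ≠ k) (a u : K) (ha : a ≠ 0)
    (_hu : u ≠ 0)
    (w_ik : ∀ (i j k : Fin n) (_ : i ≠ j) (_ : i ≠ k) (_ : j ≠ k) (t u : K) (_ : t ≠ 0),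
      S.w i j t * S.x i k u * (S.w i j t)⁻¹ = S.x j k (-(t⁻¹ * u)))
    (w_jk : ∀ (i j k : Fin n) (_ : i ≠ j) (_ : i ≠ k) (_ : j ≠ k) (t u : K) (_ : t ≠ 0),
      S.w i j t * S.x j k u * (S.w i j t)⁻¹ = S.x i k (t * u))
    (w_ki : ∀ (i j k : Fin n) (_ : i ≠ j) (_ : i ≠ k) (_ : j ≠ k) (t u : K) (_ : t ≠ 0),
      S.w i j t * S.x k i u * (S.w i j t)⁻¹ = S.x k j (-(t * u)))
    (w_kj : ∀ (i j k : Fin n) (_ : i ≠ j) (_ : i ≠ k) (_ : j ≠ k) (t u : K) (_ : t ≠ 0),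
      S.w i j t * S.x k j u * (S.w i j t)⁻¹ = S.x k i (t⁻¹ * u)) :
    S.hh i j a * S.w j k u * (S.hh i j a)⁻¹ = S.w j k (a⁻¹ * u) := by
  rw [StR.w.eq_def S j k u, conj3, hh_jk S i j k hij hik hjk a _ ha w_ik w_jk,
    hh_kj S i j k hij hik hjk a _ ha w_ki w_kj, StR.w.eq_def S j k]
  have e2 : a * -u⁻¹ = -(a⁻¹ * u)⁻¹ := by
    rw [mul_inv, inv_inv]; ring
  rw [e2]

end Cfsg.Agent.Lib.Helper57StSww
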