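import Mathlib
import Cfsg.Agent.Lib.Helper40SyllemK

set_option autoImplicit false

namespace Cfsg.Agent.Lib.Helper66SyllemK2

theorem conj_mem_commutator {G : Type*} [Group G] {P : Subgroup G} {s : G}
    (hs : ∀ x ∈ P, s * x * s⁻¹ ∈ P) {c : G} (hc : c ∈ ⁅P, P⁆) : s * c * s⁻¹ ∈ ⁅P, P⁆ := by
  have h1 : P.map (MulAut.conj s).toMonoidHom ≤ P := by
    rintro _ ⟨x, hx, rfl⟩
    exact hs x hx
  have h2 : s * c * s⁻¹ ∈ (⁅P, P⁆ : Subgroup G).map (MulAut.conj s).toMonoidHom := ⟨c, hc, rfl⟩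
  rw [Subgroup.map_commutator] at h2
  exact Subgroup.commutator_mono h1 h1 h2

/-- piece `lemK2` -/
theorem lemK2 {G : Type*} [Group G] (p : ℕ) (S K R : Subgroup G) [K.Normal] (X : Set G)
    (hS : S = Subgroup.closure X) (hR : R ≤ S) (hRK : R ⊓ K = ⊥)
    (hX : ∀ x ∈ X, ∃ r ∈ R, x * r ∈ K ∧ (x * r) ^ p ∈ ⁅S ⊓ K, S ⊓ K⁆) :
    S ⊓ K = Subgroup.closure {y | y ∈ S ⊓ K ∧ y ^ p ∈ ⁅S ⊓ K, S ⊓ K⁆} := by
  have hle : Subgroup.closure {y | y ∈ S ⊓ K ∧ y ^ p ∈ ⁅S ⊓ K, S ⊓ K⁆} ≤ S ⊓ K := by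
    rw [Subgroup.closure_le]
    intro y hy
    exact hy.1
  have hconj : ∀ s ∈ S, ∀ x ∈ S ⊓ K, s * x * s⁻¹ ∈ S ⊓ K := by
    intro s hs x hx
    exact Subgroup.mem_inf.mpr ⟨mul_mem (mul_mem hs (Subgroup.mem_inf.mp hx).1) (inv_mem hs),
      Subgroup.Normal.conj_mem inferInstance x (Subgroup.mem_inf.mp hx).2 s⟩
  refine le_antisymm ?_ hle
  refine Cfsg.Agent.Lib.Helper40SyllemK.lemK S K _ R X hS ?_ hR ?_ ?_ (hle.trans inf_le_right)
  · intro s hs n hn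
    induction hn using Subgroup.closure_induction with
    | mem y hy =>
      apply Subgroup.subset_closure
      refine ⟨hconj s hs y hy.1, ?_⟩
      rw [conj_pow]
      exact conj_mem_commutator (hconj s hs) hy.2
    | one => simp
    | mul a b _ _ iha ihb =>
      have : s * (a * b) * s⁻¹ = (s * a * s⁻¹) * (s * b * s⁻¹) := by group
      rw [this]
      exact mul_mem iha ihb
    | inv a _ iha =>
      have : s * a⁻¹ * s⁻¹ = (s * a * s⁻¹)⁻¹ := by group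
      rw [this]
      exact inv_mem iha
  · intro x hx
    obtain ⟨r, hr, h1, h2⟩ := hX x hx
    refine ⟨r, hr, Subgroup.subset_closure ⟨Subgroup.mem_inf.mpr ⟨?_, h1⟩, h2⟩⟩
    refine mul_mem ?_ (hR hr)
    rw [hS]
    exact Subgroup.subset_closure hx
  · rw [hRK]
    exact bot_le

end Cfsg.Agent.Lib.Helper66SyllemK2
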