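import Mathlib
import Cfsg.Agent.Lib.Helper58SylDefs
import Cfsg.Agent.Lib.Helper40Sylgen
import Cfsg.Agent.Lib.Helper73SylWrcard
import Cfsg.Agent.Lib.Helper73SylWrclosure
import Cfsg.Agent.Lib.Helper66SyllemK2

set_option autoImplicit false

namespace Cfsg.Agent.Lib.Helper66Sylsl3abs

open Cfsg.Agent.Lib.Helper58SylDefs

theorem card_sup_of_disjoint {G : Type*} [Group G] {H Z : Subgroup G}
    (hn : Z ≤ Subgroup.normalizer (H : Set G)) (hd : H ⊓ Z = ⊥) :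
    Nat.card (H ⊔ Z : Subgroup G) = Nat.card H * Nat.card Z := by
  rw [← Nat.card_prod]
  symm
  refine Nat.card_congr (Equiv.ofBijective
    (fun x : H × Z => (⟨(x.1 : G) * (x.2 : G),
      mul_mem (le_sup_left (a := H) (b := Z) x.1.2) (le_sup_right (a := H) (b := Z) x.2.2)⟩ :
        (H ⊔ Z : Subgroup G))) ⟨?_, ?_⟩)
  · intro x y hxy
    exact Subgroup.mul_injective_of_disjoint (disjoint_iff.mpr hd) (congrArg Subtype.val hxy)
  · rintro ⟨m, hm⟩
    rw [← SetLike.mem_coe, Subgroup.coe_mul_of_right_le_normalizer_left H Z hn, Set.mem_mul] at hm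
    obtain ⟨a, ha, b, hb, rfl⟩ := hm
    exact ⟨(⟨a, ha⟩, ⟨b, hb⟩), rfl⟩

theorem mem_zpowers_of_sq {G : Type*} [Group G] {r x : G} (hr : r * r = 1)
    (hx : x ∈ Subgroup.zpowers r) : x = 1 ∨ x = r := by
  obtain ⟨n, rfl⟩ := Subgroup.mem_zpowers_iff.mp hx
  have h2 : r ^ (2 : ℤ) = 1 := by
    rw [zpow_two]; exact hr
  rcases Int.even_or_odd' n with ⟨m, hm | hm⟩
  · left
    rw [hm, zpow_mul, h2, one_zpow]
  · right
    rw [hm, zpow_add, zpow_mul, h2, one_zpow, one_mul, zpow_one]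

/-- piece `sl3abs` -/
theorem sl3_abs {G D₀ A : Type*} [Group G] [Finite G] [Group D₀] [CommGroup A] {k : ℕ}
    (hk : 1 ≤ k) (W : WD G D₀ k) (δ : G →* A) (δ₀ : D₀ →* A) (c : A) (hc1 : c ≠ 1)
    (hc2 : c * c = 1) (hB : ∀ d, δ (W.B d) = ∏ i, δ₀ (d i)) (hPm : ∀ π, δ (W.Pm π) = 1)
    (R₂ : Subgroup D₀) (ρ : ℕ) (hR : Nat.card R₂ = 2 ^ ρ)
    (s : D₀) (hs : s ∈ R₂) (hs2 : s * s = 1) (hsδ : δ₀ s = c)
    (hdet : ∀ x ∈ R₂, δ₀ x = 1 ∨ δ₀ x = c)
    (hsq : ∀ x ∈ R₂, δ₀ x = 1 → x ^ 2 ∈ ⁅R₂ ⊓ δ₀.ker, R₂ ⊓ δ₀.ker⁆)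
    (T : Subgroup (Equiv.Perm (Fin k))) (t : ℕ) (hTc : Nat.card T = 2 ^ t)
    (hT : T = Subgroup.closure {π | π ∈ T ∧ π ^ 2 = 1})
    (j : ℕ) (z : G)
    (hz : (j = 0 ∧ z = 1) ∨ (j = 1 ∧ z * z = 1 ∧ δ z = c ∧ (∀ d, z * W.B d = W.B d * z) ∧
      (∀ π, z * W.Pm π = W.Pm π * z) ∧ ∀ d π, z ≠ W.B d * W.Pm π))
    (hG : ¬ 2 ^ (ρ * k + t + j + 1) ∣ Nat.card G) : ElemAb 2 ↥δ.ker := by
  classical
  have : Fact (Nat.Prime 2) := ⟨Nat.prime_two⟩
  have hfin : Finite R₂ := Nat.finite_of_card_ne_zero (by rw [hR]; positivity)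
  have hcardwr : Nat.card (W.wr R₂ T) = 2 ^ (ρ * k + t) := by
    rw [Cfsg.Agent.Lib.Helper73SylWrcard.card_wr, hR, hTc, ← pow_mul, ← pow_add]
  obtain ⟨S, hSdef⟩ : ∃ S : Subgroup G, S = W.wr R₂ T ⊔ Subgroup.zpowers z := ⟨_, rfl⟩
  have hmemwr : ∀ g ∈ W.wr R₂ T, ∃ d π, g = W.B d * W.Pm π := by
    intro g hg
    rw [Cfsg.Agent.Lib.Helper73SylWrcard.wr_eq_S0] at hg
    obtain ⟨d, -, π, -, h⟩ := hg
    exact ⟨d, π, h⟩
  -- the order of `S`
  have hScard : Nat.card S = 2 ^ (ρ * k + t + j) := by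
    rcases hz with ⟨hj, hz1⟩ | ⟨hj, hzz, -, hzB, hzP, hzne⟩
    · rw [hSdef, hz1, Subgroup.zpowers_one_eq_bot, sup_bot_eq, hcardwr, hj, add_zero]
    · have hzc : ∀ g ∈ W.wr R₂ T, z * g = g * z := by
        intro g hg
        obtain ⟨d, π, rfl⟩ := hmemwr g hg
        rw [← mul_assoc, hzB, mul_assoc, hzP, mul_assoc]
      have hzn : z ∉ W.wr R₂ T := by
        intro h
        obtain ⟨d, π, h'⟩ := hmemwr z h
        exact hzne d π h'
      have hz1 : z ≠ 1 := fun h => hzn (h ▸ one_mem _)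
      have hn : Subgroup.zpowers z ≤ Subgroup.normalizer ((W.wr R₂ T : Subgroup G) : Set G) := by
        rw [Subgroup.zpowers_le, Subgroup.mem_normalizer_iff]
        intro g
        constructor
        · intro hg
          rw [hzc g hg, mul_assoc, mul_inv_cancel, mul_one]; exact hg
        · intro hg
          have h1 := hzc _ hg
          have h2 : g = z⁻¹ * (z * g * z⁻¹) * z := by group
          rw [h2, mul_assoc, ← h1, ← mul_assoc, inv_mul_cancel, one_mul]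
          exact hg
      have hd : W.wr R₂ T ⊓ Subgroup.zpowers z = ⊥ := by
        rw [eq_bot_iff]
        intro x hx
        rcases mem_zpowers_of_sq hzz (Subgroup.mem_inf.mp hx).2 with h | h
        · exact Subgroup.mem_bot.mpr h
        · exact absurd (h ▸ (Subgroup.mem_inf.mp hx).1) hzn
      have hoz : orderOf z = 2 := orderOf_eq_prime (by rw [pow_two]; exact hzz) hz1
      rw [hSdef, card_sup_of_disjoint hn hd, hcardwr, Nat.card_zpowers, hoz, hj, pow_succ]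
  -- generators
  let XD : Set D₀ := ((R₂ ⊓ δ₀.ker : Subgroup D₀) : Set D₀) ∪ {s}
  let XT : Set (Equiv.Perm (Fin k)) := {π | π ∈ T ∧ π ^ 2 = 1}
  have hD : R₂ = Subgroup.closure XD := by
    apply le_antisymm
    · intro x hx
      rcases hdet x hx with h | h
      · exact Subgroup.subset_closure (Or.inl (Subgroup.mem_inf.mpr ⟨hx, h⟩))
      · have h1 : x * s ∈ R₂ ⊓ δ₀.ker := by
          refine Subgroup.mem_inf.mpr ⟨mul_mem hx hs, ?_⟩
          rw [MonoidHom.mem_ker, map_mul, h, hsδ, hc2]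
        have h2 : x = (x * s) * s := by rw [mul_assoc, hs2, mul_one]
        rw [h2]
        exact mul_mem (Subgroup.subset_closure (Or.inl h1)) (Subgroup.subset_closure (Or.inr rfl))
    · rw [Subgroup.closure_le]
      rintro x (hx | hx)
      · exact (Subgroup.mem_inf.mp hx).1
      · rw [Set.mem_singleton_iff.mp hx]; exact hs
  have hwr := Cfsg.Agent.Lib.Helper73SylWrclosure.wr_eq_closure W R₂ T XD XT hD hT
  let X : Set G := ({g | ∃ i : Fin k, ∃ d ∈ XD, g = W.B (Pi.mulSingle i d)} ∪ W.Pm '' XT) ∪ {z}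
  have hSX : S = Subgroup.closure X := by
    rw [hSdef, hwr, Subgroup.zpowers_eq_closure, ← Subgroup.closure_union]
  -- `δ` on the blocks
  have hδs : ∀ (i : Fin k) (y : D₀), δ (W.B (Pi.mulSingle i y)) = δ₀ y := by
    intro i y
    rw [hB, Finset.prod_eq_single i]
    · rw [Pi.mulSingle_eq_same]
    · intro l _ hl
      rw [Pi.mulSingle_eq_of_ne hl, map_one]
    · intro h
      exact absurd (Finset.mem_univ i) h
  have hBwr : ∀ (i : Fin k) (y : D₀), y ∈ R₂ → W.B (Pi.mulSingle i y) ∈ S := by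
    intro i y hy
    rw [hSdef]
    refine Subgroup.mem_sup_left (Subgroup.mem_sup_left ⟨Pi.mulSingle i y, ?_, rfl⟩)
    intro l _
    by_cases hl : l = i
    · subst hl
      rw [Pi.mulSingle_eq_same]; exact hy
    · rw [Pi.mulSingle_eq_of_ne hl]; exact R₂.one_mem
  let i0 : Fin k := ⟨0, hk⟩
  obtain ⟨r, hrdef⟩ : ∃ r : G, r = W.B (Pi.mulSingle i0 s) := ⟨_, rfl⟩
  have hsing2 : ∀ i l : Fin k, (Pi.mulSingle i s * Pi.mulSingle l s : Fin k → D₀) *
      (Pi.mulSingle i s * Pi.mulSingle l s) = 1 := by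
    intro i l
    funext a
    simp only [Pi.mul_apply, Pi.one_apply]
    by_cases h1 : a = i <;> by_cases h2 : a = l
    · subst h1; subst h2
      simp [hs2]
    · subst h1
      rw [Pi.mulSingle_eq_same, Pi.mulSingle_eq_of_ne h2, mul_one, hs2]
    · subst h2
      rw [Pi.mulSingle_eq_same, Pi.mulSingle_eq_of_ne h1, one_mul, hs2]
    · rw [Pi.mulSingle_eq_of_ne h1, Pi.mulSingle_eq_of_ne h2]; simp
  have hrr : r * r = 1 := by
    rw [hrdef, ← map_mul, ← Pi.mulSingle_mul, hs2, Pi.mulSingle_one, map_one]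
  have hδr : δ r = c := by rw [hrdef, hδs, hsδ]
  have hrS : r ∈ S := by rw [hrdef]; exact hBwr i0 s hs
  have hRS : Subgroup.zpowers r ≤ S := by rw [Subgroup.zpowers_le]; exact hrS
  have hRK : Subgroup.zpowers r ⊓ δ.ker = ⊥ := by
    rw [eq_bot_iff]
    intro x hx
    rcases mem_zpowers_of_sq hrr (Subgroup.mem_inf.mp hx).1 with h | h
    · exact Subgroup.mem_bot.mpr h
    · exfalso
      have h1 : δ x = 1 := (Subgroup.mem_inf.mp hx).2
      rw [h, hδr] at h1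
      exact hc1 h1
  have hX : ∀ x ∈ X, ∃ r' ∈ Subgroup.zpowers r, x * r' ∈ δ.ker ∧
      (x * r') ^ 2 ∈ ⁅S ⊓ δ.ker, S ⊓ δ.ker⁆ := by
    rintro x ((⟨i, y, (hy | hy), rfl⟩ | ⟨π, hπ, rfl⟩) | hx)
    · refine ⟨1, one_mem _, ?_, ?_⟩
      · rw [mul_one, MonoidHom.mem_ker, hδs]
        exact (Subgroup.mem_inf.mp hy).2
      · rw [mul_one, ← map_pow, ← Pi.mulSingle_pow]
        let f : D₀ →* G := W.B.comp (MonoidHom.mulSingle (fun _ : Fin k => D₀) i)
        have hf : ∀ y, f y = W.B (Pi.mulSingle i y) := fun y => rfl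
        have h1 : (R₂ ⊓ δ₀.ker).map f ≤ S ⊓ δ.ker := by
          rintro _ ⟨y', hy', rfl⟩
          refine Subgroup.mem_inf.mpr ⟨hBwr i y' (Subgroup.mem_inf.mp hy').1, ?_⟩
          rw [MonoidHom.mem_ker, hf, hδs]
          exact (Subgroup.mem_inf.mp hy').2
        have h2 : f (y ^ 2) ∈ (⁅R₂ ⊓ δ₀.ker, R₂ ⊓ δ₀.ker⁆ : Subgroup D₀).map f :=
          ⟨_, hsq y (Subgroup.mem_inf.mp hy).1 (Subgroup.mem_inf.mp hy).2, rfl⟩
        rw [Subgroup.map_commutator] at h2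
        exact Subgroup.commutator_mono h1 h1 h2
    · rw [Set.mem_singleton_iff.mp hy]
      refine ⟨r, Subgroup.mem_zpowers r, ?_, ?_⟩
      · rw [MonoidHom.mem_ker, map_mul, hδs, hδr, hsδ, hc2]
      · rw [hrdef, ← map_mul, ← map_pow, pow_two, hsing2, map_one]
        exact one_mem _
    · refine ⟨1, one_mem _, ?_, ?_⟩
      · rw [mul_one, MonoidHom.mem_ker, hPm]
      · rw [mul_one, ← map_pow, hπ.2, map_one]
        exact one_mem _
    · rw [Set.mem_singleton_iff.mp hx]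
      rcases hz with ⟨-, hz1⟩ | ⟨-, hzz, hzδ, hzB, -, -⟩
      · refine ⟨1, one_mem _, ?_, ?_⟩
        · rw [hz1, mul_one]; exact one_mem _
        · rw [hz1, mul_one, one_pow]; exact one_mem _
      · refine ⟨r, Subgroup.mem_zpowers r, ?_, ?_⟩
        · rw [MonoidHom.mem_ker, map_mul, hzδ, hδr, hc2]
        · have hcm : Commute z r := by rw [hrdef]; exact hzB _
          rw [hcm.mul_pow, pow_two, pow_two, hzz, hrr, one_mul]
          exact one_mem _
  have hgen := Cfsg.Agent.Lib.Helper66SyllemK2.lemK2 2 S δ.ker (Subgroup.zpowers r) X hSX hRS hRK hX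
  exact Cfsg.Agent.Lib.Helper40Sylgen.elemAb_normal 2 δ.ker S (ρ * k + t + j) hScard hG _ hgen
    (fun y hy => hy.2)

end Cfsg.Agent.Lib.Helper66Sylsl3abs
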