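import Mathlib
import Cfsg.Agent.Lib.Helper58SylDefs

set_option autoImplicit false

namespace Cfsg.Agent.Lib.Helper78Sylcfacts

open Cfsg.Agent.Lib.Helper58SylDefs
open Matrix

variable {F : Type*} [Field F]

/-- piece `cfacts` -/
theorem c_facts [Fintype F] (hq : Fintype.card F % 4 = 1) :
    ∃ c₀ : Fˣ, c₀ * c₀ = -1 ∧ ∀ C : Sylow 2 Fˣ, c₀ ∈ (C : Subgroup Fˣ) := by
  have h1 : IsSquare (-1 : F) := by
    rw [FiniteField.isSquare_neg_one_iff]
    omega
  obtain ⟨c, hc⟩ := h1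
  have hc0 : c ≠ 0 := by
    rintro rfl
    simp at hc
  refine ⟨Units.mk0 c hc0, ?_, ?_⟩
  · apply Units.ext
    simp [← hc]
  · intro C
    have h4 : (Units.mk0 c hc0) ^ (2 ^ 2) = 1 := by
      apply Units.ext
      simp only [Units.val_pow_eq_pow_val, Units.val_mk0, Units.val_one]
      have : c ^ (2 ^ 2) = (c * c) * (c * c) := by ring
      rw [this, ← hc]
      ring
    have hP : IsPGroup 2 (Subgroup.zpowers (Units.mk0 c hc0)) := by
      rintro ⟨_, k, rfl⟩
      refine ⟨2, ?_⟩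
      apply Subtype.ext
      simp only [Subgroup.coe_pow, Subgroup.coe_one]
      rw [← zpow_natCast, ← _root_.zpow_mul, mul_comm, _root_.zpow_mul, zpow_natCast, h4, _root_.one_zpow]
    obtain ⟨Q, hQ⟩ := hP.exists_le_sylow
    obtain ⟨g, hg⟩ := MulAction.exists_smul_eq Fˣ Q C
    have hQC : Q = C := by
      rw [← hg, Sylow.smul_eq_of_normal]
    rw [← hQC]
    exact hQ (Subgroup.mem_zpowers _)

end Cfsg.Agent.Lib.Helper78Sylcfacts
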