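import Mathlib
import Cfsg.Agent.Lib.Helper58SylDefs
import Cfsg.Agent.Lib.Helper7SL

set_option autoImplicit false

namespace Cfsg.Agent.Lib.Helper78Sylsliso

open Cfsg.Agent.Lib.Helper58SylDefs
open Matrix

variable {F : Type*} [Field F]

/-- reindexing the special linear group. -/
def slReindex {κ m : Type*} [Fintype κ] [DecidableEq κ] [Fintype m] [DecidableEq m] (e : κ ≃ m) :
    Matrix.SpecialLinearGroup κ F ≃* Matrix.SpecialLinearGroup m F where
  toFun A := ⟨Matrix.reindex e e A.1, by rw [Matrix.det_reindex_self]; exact A.2⟩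
  invFun A := ⟨Matrix.reindex e.symm e.symm A.1, by rw [Matrix.det_reindex_self]; exact A.2⟩
  left_inv A := by
    apply Subtype.ext
    ext i j
    simp
  right_inv A := by
    apply Subtype.ext
    ext i j
    simp
  map_mul' A B := by
    apply Subtype.ext
    exact (Matrix.submatrix_mul_equiv A.1 B.1 e.symm e.symm e.symm).symm

/-- piece `sliso` -/
theorem sl_iso {κ : Type} [Fintype κ] [DecidableEq κ] (n : ℕ) (h : Fintype.card κ = n) :
    Nonempty (Matrix.SpecialLinearGroup (Fin n) F ≃*
      ↥(Matrix.GeneralLinearGroup.det : GL κ F →* Fˣ).ker) :=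
  ⟨(slReindex (Fintype.equivFinOfCardEq h).symm).trans Cfsg.Agent.Lib.Helper7SL.slEquivKerDet⟩

/-- piece `sliso` -/
theorem card_gl [Fintype F] {κ : Type} [Fintype κ] [DecidableEq κ] (n : ℕ)
    (h : Fintype.card κ = n) :
    Nat.card (GL κ F) = ∏ i : Fin n, (Fintype.card F ^ n - Fintype.card F ^ (i : ℕ)) := by
  rw [← Matrix.card_GL_field]
  exact Nat.card_congr
    (Units.mapEquiv (Matrix.reindexAlgEquiv F F (Fintype.equivFinOfCardEq h)).toMulEquiv).toEquiv

end Cfsg.Agent.Lib.Helper78Sylsliso
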