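import Mathlib
import Cfsg.Agent.Lib.Helper58SylDefs
import Cfsg.Agent.Lib.Helper40Sylgen
import Cfsg.Agent.Lib.Helper70SylSl2

set_option autoImplicit false

namespace Cfsg.Agent.Lib.Helper7SylGl2

open Cfsg.Agent.Lib.Helper58SylDefs Cfsg.Agent.Lib.Helper40Sylcongr
open Matrix

variable {F : Type*} [Field F]

/-- `SL_2 ≃ ker det` -/
def slKer : Matrix.SpecialLinearGroup (Fin 2) F ≃*
    ↥(Matrix.GeneralLinearGroup.det : GL (Fin 2) F →* Fˣ).ker where
  toFun A := ⟨Matrix.SpecialLinearGroup.toGL A, by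
    rw [MonoidHom.mem_ker]
    apply Units.ext
    exact A.2⟩
  invFun g := ⟨((g : GL (Fin 2) F) : Matrix (Fin 2) (Fin 2) F), by
    have := g.2
    rw [MonoidHom.mem_ker] at this
    exact congrArg Units.val this⟩
  left_inv A := by
    apply Subtype.ext
    rfl
  right_inv g := by
    apply Subtype.ext
    apply Units.ext
    rfl
  map_mul' A B := by
    apply Subtype.ext
    apply Units.ext
    rfl

theorem gl2_sylow [Fintype F] (hq : Fintype.card F % 4 = 3) (R₂ : Sylow 2 (GL (Fin 2) F)) :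
    (∃ s ∈ (R₂ : Subgroup (GL (Fin 2) F)), s * s = 1 ∧ Matrix.GeneralLinearGroup.det s = -1) ∧
    (∀ x ∈ (R₂ : Subgroup (GL (Fin 2) F)),
      Matrix.GeneralLinearGroup.det x = 1 ∨ Matrix.GeneralLinearGroup.det x = -1) ∧
    (∀ x ∈ (R₂ : Subgroup (GL (Fin 2) F)), Matrix.GeneralLinearGroup.det x = 1 →
      x ^ 2 ∈ ⁅(R₂ : Subgroup (GL (Fin 2) F)) ⊓ (Matrix.GeneralLinearGroup.det : GL (Fin 2) F →* Fˣ).ker,
        (R₂ : Subgroup (GL (Fin 2) F)) ⊓ (Matrix.GeneralLinearGroup.det : GL (Fin 2) F →* Fˣ).ker⁆) := by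
  classical
  have hF : Odd (Fintype.card F) := Nat.odd_iff.2 (by omega)
  refine ⟨?_, ?_, ?_⟩
  · have hss : (Matrix.diagonal ![(1 : F), -1]) * (Matrix.diagonal ![(1 : F), -1]) = 1 := by
      rw [Matrix.diagonal_mul_diagonal, ← Matrix.diagonal_one]
      congr 1
      funext l
      fin_cases l <;> simp
    let s₀ : GL (Fin 2) F := ⟨Matrix.diagonal ![(1 : F), -1], Matrix.diagonal ![(1 : F), -1], hss, hss⟩
    have hs₀ : s₀ * s₀ = 1 := Units.ext hss
    have hd₀ : Matrix.GeneralLinearGroup.det s₀ = -1 := by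
      apply Units.ext
      show (Matrix.diagonal ![(1 : F), -1]).det = _
      rw [Matrix.det_diagonal]
      simp [Fin.prod_univ_two]
    have hp : IsPGroup 2 (Subgroup.zpowers s₀) := by
      rintro ⟨g, hg⟩
      obtain ⟨n, rfl⟩ := Subgroup.mem_zpowers_iff.1 hg
      refine ⟨1, ?_⟩
      apply Subtype.ext
      simp only [pow_one, SubmonoidClass.mk_pow, OneMemClass.coe_one]
      rw [← zpow_natCast, ← _root_.zpow_mul, mul_comm, _root_.zpow_mul]
      have : s₀ ^ ((2 : ℕ) : ℤ) = 1 := by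
        rw [zpow_natCast, pow_two, hs₀]
      rw [this, _root_.one_zpow]
    obtain ⟨P, hP⟩ := hp.exists_le_sylow
    obtain ⟨g, hg⟩ := MulAction.exists_smul_eq (GL (Fin 2) F) P R₂
    refine ⟨g * s₀ * g⁻¹, ?_, ?_, ?_⟩
    · rw [← hg]
      have h1 : s₀ ∈ (P : Subgroup (GL (Fin 2) F)) := hP (Subgroup.mem_zpowers _)
      have h2 := Subgroup.smul_mem_pointwise_smul _ (MulAut.conj g) _ h1
      rw [MulAut.smul_def, MulAut.conj_apply] at h2
      exact h2
    · calc g * s₀ * g⁻¹ * (g * s₀ * g⁻¹) = g * (s₀ * s₀) * g⁻¹ := by group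
        _ = 1 := by rw [hs₀]; group
    · rw [map_mul, map_mul, map_inv, hd₀, mul_comm, ← mul_assoc, inv_mul_cancel, one_mul]
  · intro x hx
    obtain ⟨k, hk⟩ := R₂.2 ⟨x, hx⟩
    have hk' : x ^ (2 ^ k) = 1 := by
      have := congrArg Subtype.val hk
      simpa using this
    set u := Matrix.GeneralLinearGroup.det x with hu
    have h1 : u ^ (2 ^ k) = 1 := by rw [hu, ← map_pow, hk', map_one]
    have h2 : u ^ (Fintype.card F - 1) = 1 := by
      rw [← Fintype.card_units]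
      exact pow_card_eq_one
    have h3 : orderOf u ∣ Nat.gcd (2 ^ k) (Fintype.card F - 1) :=
      Nat.dvd_gcd (orderOf_dvd_of_pow_eq_one h1) (orderOf_dvd_of_pow_eq_one h2)
    have h4 : Nat.gcd (2 ^ k) (Fintype.card F - 1) ∣ 2 := by
      obtain ⟨i, -, hi⟩ := (Nat.dvd_prime_pow Nat.prime_two).1 (Nat.gcd_dvd_left (2 ^ k) (Fintype.card F - 1))
      have h5 : 2 ^ i ∣ Fintype.card F - 1 := hi ▸ Nat.gcd_dvd_right (2 ^ k) (Fintype.card F - 1)
      rw [hi]
      have hi1 : i ≤ 1 := by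
        by_contra hcon
        have : 2 ^ 2 ∣ 2 ^ i := pow_dvd_pow 2 (by omega)
        have := this.trans h5
        omega
      calc 2 ^ i ∣ 2 ^ 1 := pow_dvd_pow 2 hi1
        _ = 2 := by norm_num
    have h6 : u ^ 2 = 1 := orderOf_dvd_iff_pow_eq_one.1 (h3.trans h4)
    have h7 : (u : F) * (u : F) = 1 := by
      have := congrArg Units.val h6
      simpa [pow_two] using this
    rcases mul_self_eq_one_iff.1 h7 with h | h
    · left; exact Units.ext h
    · right; exact Units.ext (by simpa using h)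
  · intro x hx hdx
    have hE : ElemAb 2 (Matrix.SpecialLinearGroup (Fin 2) F) := by
      rw [elemAb_iff]
      intro D y hy
      exact Cfsg.Agent.Lib.Helper70SylSl2.elemAb_sl2 hF D y hy
    have hE' := elemAb_congr 2 (slKer (F := F)) hE
    rw [elemAb_iff] at hE'
    have hxK : x ∈ (Matrix.GeneralLinearGroup.det : GL (Fin 2) F →* Fˣ).ker := hdx
    have h1 := hE' (Cfsg.Agent.Lib.Helper67Basic.sylowInfNormal R₂ _) ⟨x, hxK⟩ (by
      rw [Cfsg.Agent.Lib.Helper67Basic.sylowInfNormal_coe, Subgroup.mem_subgroupOf]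
      exact hx)
    have h2 := Subgroup.mem_map_of_mem
      ((Matrix.GeneralLinearGroup.det : GL (Fin 2) F →* Fˣ).ker).subtype h1
    rw [Subgroup.map_commutator, Cfsg.Agent.Lib.Helper67Basic.sylowInfNormal_map] at h2
    exact h2

end Cfsg.Agent.Lib.Helper7SylGl2
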