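import Mathlib
import Cfsg.Agent.Lib.Helper58SylDefs
import Cfsg.Agent.Lib.Helper17SylArithGL
import Cfsg.Agent.Lib.Helper29SylTextrans
import Cfsg.Agent.Lib.Helper66SyllemK2
import Cfsg.Agent.Lib.Helper66Sylsl3abs
import Cfsg.Agent.Lib.Helper78Sylcfacts
import Cfsg.Agent.Lib.Helper78Sylmonwd
import Cfsg.Agent.Lib.Helper78Sylsliso
import Cfsg.Agent.Lib.Helper7SylGl2
import Cfsg.Agent.Lib.Helper7SylGlwd
import Cfsg.Agent.Lib.Helper17SylSl1abs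
import Cfsg.Agent.Lib.Helper17SylArith

set_option autoImplicit false

namespace Cfsg.Agent.Lib.Helper58SylHubD

open Cfsg.Agent.Lib.Helper58SylDefs
open Matrix

/-- the 2-adic valuation of `q² - 1` (same as in SkelA) -/
abbrev dd (q : ℕ) : ℕ := Cfsg.Agent.Lib.Helper17SylArith.dd q

/-- piece `lemK2` -/
theorem lemK2 {G : Type*} [Group G] (p : ℕ) (S K R : Subgroup G) [K.Normal] (X : Set G)
    (hS : S = Subgroup.closure X) (hR : R ≤ S) (hRK : R ⊓ K = ⊥)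
    (hX : ∀ x ∈ X, ∃ r ∈ R, x * r ∈ K ∧ (x * r) ^ p ∈ ⁅S ⊓ K, S ⊓ K⁆) :
    S ⊓ K = Subgroup.closure {y | y ∈ S ⊓ K ∧ y ^ p ∈ ⁅S ⊓ K, S ⊓ K⁆} :=
  Cfsg.Agent.Lib.Helper66SyllemK2.lemK2 p S K R X hS hR hRK hX

/-- piece `sl3abs` -/
theorem sl3_abs {G D₀ A : Type*} [Group G] [Finite G] [Group D₀] [CommGroup A] {k : ℕ}
    (hk : 1 ≤ k) (W : WD G D₀ k) (δ : G →* A) (δ₀ : D₀ →* A) (c : A) (hc1 : c ≠ 1)
    (hc2 : c * c = 1) (hB : ∀ d, δ (W.B d) = ∏ i, δ₀ (d i)) (hPm : ∀ π, δ (W.Pm π) = 1)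
    (R₂ : Subgroup D₀) (ρ : ℕ) (hR : Nat.card R₂ = 2 ^ ρ)
    (s : D₀) (hs : s ∈ R₂) (hs2 : s * s = 1) (hsδ : δ₀ s = c)
    (hdet : ∀ x ∈ R₂, δ₀ x = 1 ∨ δ₀ x = c)
    (hsq : ∀ x ∈ R₂, δ₀ x = 1 → x ^ 2 ∈ ⁅R₂ ⊓ δ₀.ker, R₂ ⊓ δ₀.ker⁆)
    (T : Subgroup (Equiv.Perm (Fin k))) (t : ℕ) (hTc : Nat.card T = 2 ^ t)
    (hT : T = Subgroup.closure {π | π ∈ T ∧ π ^ 2 = 1})
    (j : ℕ) (z : G)
    (hz : (j = 0 ∧ z = 1) ∨ (j = 1 ∧ z * z = 1 ∧ δ z = c ∧ (∀ d, z * W.B d = W.B d * z) ∧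
      (∀ π, z * W.Pm π = W.Pm π * z) ∧ ∀ d π, z ≠ W.B d * W.Pm π))
    (hG : ¬ 2 ^ (ρ * k + t + j + 1) ∣ Nat.card G) : ElemAb 2 ↥δ.ker :=
  Cfsg.Agent.Lib.Helper66Sylsl3abs.sl3_abs hk W δ δ₀ c hc1 hc2 hB hPm R₂ ρ hR s hs hs2 hsδ hdet hsq T t hTc hT j z hz hG

/-- piece `sl1abs` -/
theorem sl1_abs {G A : Type*} [Group G] [Finite G] [CommGroup A] {n : ℕ} (hn : 1 ≤ n)
    (W : WD G A n) (δ : G →* A) (c c₀ : A) (hc1 : c ≠ 1) (hc0 : c₀ * c₀ = c) (hc2 : c * c = 1)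
    (hB : ∀ d, δ (W.B d) = ∏ i, d i)
    (hPm1 : ∀ π, Equiv.Perm.sign π = 1 → δ (W.Pm π) = 1)
    (hPm2 : ∀ π, Equiv.Perm.sign π = -1 → δ (W.Pm π) = c)
    (C : Subgroup A) (a : ℕ) (hC : Nat.card C = 2 ^ a) (hc₀ : c₀ ∈ C)
    (T : Subgroup (Equiv.Perm (Fin n))) (t : ℕ) (hTc : Nat.card T = 2 ^ t)
    (hT : T = Subgroup.closure {π | π ∈ T ∧ π ^ 2 = 1})
    (htr : ∀ i l : Fin n, ∃ π ∈ T, π i = l)
    (hG : ¬ 2 ^ (a * n + t + 1) ∣ Nat.card G) : ElemAb 2 ↥δ.ker := by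
  exact Cfsg.Agent.Lib.Helper17SylSl1abs.sl1_abs hn W δ c c₀ hc1 hc0 hc2 hB hPm1 hPm2 C a hC hc₀ T t hTc hT htr hG
    (fun p S K R _ X h1 h2 h3 h4 => lemK2 p S K R X h1 h2 h3 h4)

/-- piece `textrans` -/
theorem tex_trans (j : ℕ) (T : Subgroup (Equiv.Perm (Fin (2 ^ j))))
    (hTc : Nat.card T = 2 ^ (((2 ^ j).factorial).factorization 2)) :
    ∀ i l : Fin (2 ^ j), ∃ π ∈ T, π i = l :=
  Cfsg.Agent.Lib.Helper29SylTextrans.tex_trans j T hTc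

section Lin

variable {F : Type*} [Field F]

/-- piece `sliso` -/
theorem sl_iso {κ : Type} [Fintype κ] [DecidableEq κ] (n : ℕ) (h : Fintype.card κ = n) :
    Nonempty (Matrix.SpecialLinearGroup (Fin n) F ≃*
      ↥(Matrix.GeneralLinearGroup.det : GL κ F →* Fˣ).ker) :=
  Cfsg.Agent.Lib.Helper78Sylsliso.sl_iso n h

/-- piece `sliso` -/
theorem card_gl [Fintype F] {κ : Type} [Fintype κ] [DecidableEq κ] (n : ℕ)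
    (h : Fintype.card κ = n) :
    Nat.card (GL κ F) = ∏ i : Fin n, (Fintype.card F ^ n - Fintype.card F ^ (i : ℕ)) :=
  Cfsg.Agent.Lib.Helper78Sylsliso.card_gl n h

/-- piece `glwd` -/
theorem exists_wd_gl (k j : ℕ) :
    ∃ W : WD (GL ((Fin 2 × Fin k) ⊕ Fin j) F) (GL (Fin 2) F) k,
      (∀ d, Matrix.GeneralLinearGroup.det (W.B d) = ∏ i, Matrix.GeneralLinearGroup.det (d i)) ∧
      (∀ π, Matrix.GeneralLinearGroup.det (W.Pm π) = 1) ∧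
      (1 ≤ j → (2 : F) ≠ 0 → ∃ z : GL ((Fin 2 × Fin k) ⊕ Fin j) F, z * z = 1 ∧
        Matrix.GeneralLinearGroup.det z = -1 ∧ (∀ d, z * W.B d = W.B d * z) ∧
        (∀ π, z * W.Pm π = W.Pm π * z) ∧ ∀ d π, z ≠ W.B d * W.Pm π) :=
  Cfsg.Agent.Lib.Helper7SylGlwd.exists_wd_gl k j

/-- piece `monwd` -/
theorem exists_wd_mon (n : ℕ) :
    ∃ W : WD (GL (Fin n) F) Fˣ n,
      (∀ d, Matrix.GeneralLinearGroup.det (W.B d) = ∏ i, d i) ∧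
      (∀ π, Equiv.Perm.sign π = 1 → Matrix.GeneralLinearGroup.det (W.Pm π) = 1) ∧
      (∀ π, Equiv.Perm.sign π = -1 → Matrix.GeneralLinearGroup.det (W.Pm π) = -1) :=
  Cfsg.Agent.Lib.Helper78Sylmonwd.exists_wd_mon n

/-- piece `gl2` -/
theorem gl2_sylow [Fintype F] (hq : Fintype.card F % 4 = 3) (R₂ : Sylow 2 (GL (Fin 2) F)) :
    (∃ s ∈ (R₂ : Subgroup (GL (Fin 2) F)), s * s = 1 ∧ Matrix.GeneralLinearGroup.det s = -1) ∧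
    (∀ x ∈ (R₂ : Subgroup (GL (Fin 2) F)),
      Matrix.GeneralLinearGroup.det x = 1 ∨ Matrix.GeneralLinearGroup.det x = -1) ∧
    (∀ x ∈ (R₂ : Subgroup (GL (Fin 2) F)), Matrix.GeneralLinearGroup.det x = 1 →
      x ^ 2 ∈ ⁅(R₂ : Subgroup (GL (Fin 2) F)) ⊓ (Matrix.GeneralLinearGroup.det : GL (Fin 2) F →* Fˣ).ker,
        (R₂ : Subgroup (GL (Fin 2) F)) ⊓ (Matrix.GeneralLinearGroup.det : GL (Fin 2) F →* Fˣ).ker⁆) :=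
  Cfsg.Agent.Lib.Helper7SylGl2.gl2_sylow hq R₂

/-- piece `cfacts` -/
theorem c_facts [Fintype F] (hq : Fintype.card F % 4 = 1) :
    ∃ c₀ : Fˣ, c₀ * c₀ = -1 ∧ ∀ C : Sylow 2 Fˣ, c₀ ∈ (C : Subgroup Fˣ) :=
  Cfsg.Agent.Lib.Helper78Sylcfacts.c_facts hq

end Lin

/-- piece `arithgl3` -/
theorem arith_gl3 (q : ℕ) (hq : q % 4 = 3) (m j : ℕ) (hj : j ≤ 1) :
    ¬ 2 ^ ((dd q + 1) * m + (m.factorial).factorization 2 + j + 1) ∣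
      ∏ i : Fin (2 * m + j), (q ^ (2 * m + j) - q ^ (i : ℕ)) :=
  Cfsg.Agent.Lib.Helper17SylArithGL.arith_gl3 q hq m j hj

/-- piece `arithgl3` -/
theorem val_gl2 (q : ℕ) (hq : q % 4 = 3) :
    (∏ i : Fin 2, (q ^ 2 - q ^ (i : ℕ))).factorization 2 = dd q + 1 :=
  Cfsg.Agent.Lib.Helper17SylArithGL.val_gl2 q hq

/-- piece `arithgl1` -/
theorem arith_gl1 (q : ℕ) (hq : q % 4 = 1) (hq1 : 1 < q) (n : ℕ) :
    ¬ 2 ^ ((q - 1).factorization 2 * n + (n.factorial).factorization 2 + 1) ∣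
      ∏ i : Fin n, (q ^ n - q ^ (i : ℕ)) :=
  Cfsg.Agent.Lib.Helper17SylArithGL.arith_gl1 q hq hq1 n

end Cfsg.Agent.Lib.Helper58SylHubD
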