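import Mathlib
import Cfsg.Prelude.Def_Classical
import Cfsg.Agent.Lib.Helper7Iso
import Cfsg.Agent.Lib.Helper7QForms

set_option autoImplicit false

namespace Cfsg.Agent.Lib.Helper7OOdd

open Matrix QuadraticMap Cfsg.Agent.Lib.Helper7QFrame Cfsg.Agent.Lib.Helper7Iso
  Cfsg.Agent.Lib.Helper7QCount Cfsg.Agent.Lib.Helper7QForms

variable {F : Type*} [Field F] (m : ℕ)

local notation "I" => Unit ⊕ (Fin m ⊕ Fin m)

noncomputable def QO (F : Type*) [Field F] (m : ℕ) :
    QuadraticForm F (Unit ⊕ (Fin m ⊕ Fin m) → F) :=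
  QuadraticMap.proj (Sum.inl ()) (Sum.inl ())
    + ∑ i : Fin m, QuadraticMap.proj (Sum.inr (Sum.inl i)) (Sum.inr (Sum.inr i))

theorem QO_apply (v : I → F) : QO F m v = Cfsg.quadFormOdd m F v := by
  simp [QO, Cfsg.quadFormOdd, _root_.sq]

theorem polar_QO (u v : I → F) :
    polar (QO F m) u v = 2 * u (.inl ()) * v (.inl ())
      + ∑ i, (u (.inr (.inl i)) * v (.inr (.inr i)) + v (.inr (.inl i)) * u (.inr (.inr i))) := by
  unfold polar
  rw [QO_apply, QO_apply, QO_apply]
  unfold Cfsg.quadFormOdd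
  have : ∀ a b c a' b' c' : F, (a + a') - (b + b') - (c + c') = (a - b - c) + (a' - b' - c') := by
    intros; ring
  rw [this, ← Finset.sum_sub_distrib, ← Finset.sum_sub_distrib]
  congr 1
  · simp only [Pi.add_apply]; ring
  · apply Finset.sum_congr rfl
    intro i _
    simp only [Pi.add_apply]
    ring

theorem nondeg (h2 : (2 : F) ≠ 0) (v : I → F) (hv : v ≠ 0) : ∃ w, polar (QO F m) v w ≠ 0 := by
  classical
  obtain ⟨j, hj⟩ : ∃ j, v j ≠ 0 := by
    by_contra h
    push Not at h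
    exact hv (funext h)
  rcases j with ⟨⟩ | i | i
  · refine ⟨Pi.single (.inl ()) 1, ?_⟩
    rw [polar_QO]
    simp [h2, hj]
  · refine ⟨Pi.single (.inr (.inr i)) 1, ?_⟩
    rw [polar_QO, Finset.sum_eq_single i]
    · simpa using hj
    · intro b _ hb
      simp [hb]
    · simp
  · refine ⟨Pi.single (.inr (.inl i)) 1, ?_⟩
    rw [polar_QO, Finset.sum_eq_single i]
    · simpa using hj
    · intro b _ hb
      simp [hb]
    · simp

def stdFrame (F : Type*) [Field F] (m : ℕ) :
    Fin m → (Unit ⊕ (Fin m ⊕ Fin m) → F) × (Unit ⊕ (Fin m ⊕ Fin m) → F) :=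
  fun i => (Pi.single (.inr (.inl i)) 1, Pi.single (.inr (.inr i)) 1)

theorem isFrame_std : IsFrame (QO F m) (stdFrame F m) := by
  constructor
  · intro i
    refine ⟨?_, ?_, ?_⟩
    · rw [QO_apply]; simp [stdFrame, Cfsg.quadFormOdd]
    · rw [QO_apply]; simp [stdFrame, Cfsg.quadFormOdd]
    · rw [polar_QO, Finset.sum_eq_single i]
      · simp [stdFrame]
      · intro b _ hb
        simp [stdFrame, hb]
      · simp
  · intro i j hij
    refine ⟨⟨?_, ?_⟩, ⟨?_, ?_⟩⟩ <;> rw [polar_QO] <;> simp only [stdFrame] <;>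
      rw [Finset.sum_eq_zero] <;> try simp
    · intro l
      by_cases h : l = i
      · subst h; simp [hij]
      · simp [h]
    · intro l
      by_cases h : l = i
      · subst h; simp [hij]
      · simp [h]

theorem perp_std : Perp (QO F m) (stdFrame F m) (Pi.single (.inl ()) 1) := by
  intro i
  constructor <;> rw [polar_QO] <;> simp [stdFrame]

theorem Q_std : QO F m (Pi.single (.inl ()) 1) = 1 := by
  rw [QO_apply]; simp [Cfsg.quadFormOdd]

def matOf {m : ℕ} (φ : Fin m → (Unit ⊕ (Fin m ⊕ Fin m) → F) × (Unit ⊕ (Fin m ⊕ Fin m) → F))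
    (w : Unit ⊕ (Fin m ⊕ Fin m) → F) :
    Matrix (Unit ⊕ (Fin m ⊕ Fin m)) (Unit ⊕ (Fin m ⊕ Fin m)) F :=
  Matrix.of fun r c => Sum.elim (fun _ => w r) (Sum.elim (fun i => (φ i).1 r) (fun i => (φ i).2 r)) c

theorem matOf_mulVec {m : ℕ}
    (φ : Fin m → (Unit ⊕ (Fin m ⊕ Fin m) → F) × (Unit ⊕ (Fin m ⊕ Fin m) → F))
    (w u : Unit ⊕ (Fin m ⊕ Fin m) → F) :
    matOf φ w *ᵥ u = ∑ i, (u (.inr (.inl i)) • (φ i).1 + u (.inr (.inr i)) • (φ i).2)
      + u (.inl ()) • w := by
  ext r
  simp [matOf, Matrix.mulVec, dotProduct, Fintype.sum_sum_type, Finset.sum_add_distrib, mul_comm]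
  ring

noncomputable def frameEquivMat :
    {M : Matrix I I F // ∀ u, QO F m (M *ᵥ u) = QO F m u}
      ≃ Σ φ : {φ : Fin m → (I → F) × (I → F) // IsFrame (QO F m) φ},
          {w : I → F // Perp (QO F m) φ.1 w ∧ QO F m w = 1} where
  toFun M := ⟨⟨fun i => (M.1 *ᵥ (stdFrame F m i).1, M.1 *ᵥ (stdFrame F m i).2),
    isFrame_map (g := fun x => M.1 *ᵥ x) (fun x y => Matrix.mulVec_add M.1 x y) M.2 (isFrame_std m)⟩,
    ⟨M.1 *ᵥ Pi.single (.inl ()) 1,
      perp_map (g := fun x => M.1 *ᵥ x) (fun x y => Matrix.mulVec_add M.1 x y) M.2 (perp_std m),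
      by rw [M.2, Q_std]⟩⟩
  invFun s := ⟨matOf s.1.1 s.2.1, fun u => by
    rw [matOf_mulVec, norm_sum s.1.1 s.1.2 _ _ _ (s.2.2.1.smul _), QuadraticMap.map_smul, s.2.2.2,
      QO_apply]
    simp [Cfsg.quadFormOdd, _root_.sq, add_comm]⟩
  left_inv M := by
    apply Subtype.ext
    ext r c
    rcases c with ⟨⟩ | i | i <;> simp [matOf, stdFrame]
  right_inv s := by
    apply Sigma.subtype_ext
    · apply Subtype.ext
      funext i
      apply Prod.ext <;> (ext r; simp [matOf, stdFrame])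
    · ext r
      simp [matOf]

variable [Fintype F]

theorem card_sq_eq_one (h2 : (2 : F) ≠ 0) : Nat.card {x : F // nuOdd F x = 1} = 2 := by
  classical
  have h1 : Nat.card {x : F // nuOdd F x = 1} = ({1, -1} : Finset F).card := by
    rw [Nat.card_eq_fintype_card, Fintype.card_subtype]
    congr 1
    ext x
    simp [nuOdd]
  rw [h1, Finset.card_pair]
  intro h
  apply h2
  linear_combination h

theorem prod_formula (q : ℕ) (m : ℕ) :
    ∏ j ∈ Finset.range m, ((q ^ (2 * (j + 1)) - 1) * (q ^ (2 * j) * q))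
      = q ^ (m ^ 2) * ∏ i ∈ Finset.range m, (q ^ (2 * (i + 1)) - 1) := by
  induction m with
  | zero => simp
  | succ m ih =>
    rw [Finset.prod_range_succ, ih, Finset.prod_range_succ]
    have h5 : q ^ ((m + 1) ^ 2) = q ^ (m ^ 2) * (q ^ (2 * m) * q) := by
      rw [← pow_succ, ← pow_add]; congr 1; ring
    rw [h5]
    ring

theorem card_isometryGroup_odd (hodd : Odd (Fintype.card F)) :
    Nat.card (Cfsg.isometryGroup F (Cfsg.quadFormOdd m F))
      = 2 * Fintype.card F ^ (m ^ 2)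
        * ∏ i ∈ Finset.range m, (Fintype.card F ^ (2 * (i + 1)) - 1) := by
  classical
  have h2 : (2 : F) ≠ 0 := by
    have hc : ringChar F ≠ 2 := by
      intro h
      have := FiniteField.even_card_of_char_two h
      exact (Nat.not_even_iff_odd.mpr hodd) (Nat.even_iff.mpr this)
    exact Ring.two_ne_zero hc
  have hV : Fintype.card (I → F) = Fintype.card F ^ (2 * m) * Fintype.card F := by
    simp [two_mul, pow_add, pow_succ]
    ring
  have hcnt : ∀ c, Nat.card {v : I → F // QO F m v = c} = cntQ (nuOdd F) m c := fun c => by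
    rw [← card_odd]
    simp_rw [QO_apply]
  rw [Nat.card_congr ((isoEquiv (QO F m) _ (QO_apply m) (nondeg m h2)).trans (frameEquivMat m)),
    Nat.card_sigma]
  have h1 : ∀ φ : {φ : Fin m → (I → F) × (I → F) // IsFrame (QO F m) φ},
      Nat.card {w : I → F // Perp (QO F m) φ.1 w ∧ QO F m w = 1} = 2 := by
    intro φ
    rw [(card_perp (nuOdd F) m hV hcnt m le_rfl φ.1 φ.2).2 1, Nat.sub_self, cntQ_zero,
      card_sq_eq_one h2]
  simp_rw [h1]
  rw [Finset.sum_const, Finset.card_univ, smul_eq_mul, ← Nat.card_eq_fintype_card,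
    card_frame (nuOdd F) m hV hcnt (nondeg m h2) m le_rfl, ← Finset.prod_range_reflect]
  rw [mul_comm, mul_assoc, ← prod_formula]
  congr 1
  apply Finset.prod_congr rfl
  intro j hj
  rw [Finset.mem_range] at hj
  have e1 : m - (m - 1 - j) = j + 1 := by omega
  have e2 : m - (m - 1 - j + 1) = j := by omega
  rw [e1, e2, cntQ_odd_zero]

end Cfsg.Agent.Lib.Helper7OOdd
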