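import Mathlib
import Cfsg.Agent.Lib.Helper58SylHubA
import Cfsg.Agent.Lib.Helper49Forms
import Cfsg.Agent.Lib.Helper49Disc
import Cfsg.Agent.Lib.Helper49OddForm
import Cfsg.Agent.S0286
import Cfsg.Agent.S0287
import Cfsg.Agent.S0288

set_option autoImplicit false

namespace Cfsg.Agent.Lib.Helper58SylMainB

open Cfsg.Agent.Lib.Helper49Orth Cfsg.Agent.Lib.Helper49Gram Cfsg.Agent.Lib.Helper58SylDefs
open Cfsg.Agent.Lib.Helper58SylHubA
open scoped Matrix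

variable {F : Type*} [Field F] [Fintype F]

theorem fin_thm (h2 : (2 : F) ≠ 0) {ι : Type} [Fintype ι] [DecidableEq ι]
    (Q : QuadraticForm F (ι → F)) (S : Subgroup (OG Q)) (Z : Set (ι → F)) (h : Good Q S Z)
    (e : ℕ) (hS : Nat.card S = 2 ^ e) (hG : ¬ 2 ^ (e + 1) ∣ Nat.card (OG Q)) :
    ElemAb 2 ↥(Cfsg.Omega F ⇑Q) := by
  have : Fact (Nat.Prime 2) := ⟨Nat.prime_two⟩
  have h1 := mat_thm h2 Q S Z h
  exact elemAb_normal 2 (Cfsg.Omega F ⇑Q) S e hS hG _ h1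
    (fun y hy => by rw [pow_two, hy.2.2]; exact one_mem _)

theorem pow_good (hF : Odd (Fintype.card F)) (k : ℕ) (hk : 2 ≤ k) :
    ∃ S : Subgroup (OG (Qpow (sq2 F) k)), Good (Qpow (sq2 F) k) S ∅ ∧
      Nat.card S = 2 ^ ((Nat.card (OG (sq2 F))).factorization 2 * k
        + (k.factorial).factorization 2) := by
  have : Fact (Nat.Prime 2) := ⟨Nat.prime_two⟩
  obtain ⟨W, hW⟩ := exists_wd (sq2 F) k
  obtain ⟨D⟩ : Nonempty (Sylow 2 (OG (sq2 F))) := inferInstance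
  have hDc : Nat.card (D : Subgroup (OG (sq2 F)))
      = 2 ^ (Nat.card (OG (sq2 F))).factorization 2 := D.card_eq_multiplicity
  obtain ⟨hDgen, ⟨va, hva0, hvasq, hvaD⟩, ⟨vb, hvbsq, hvbD⟩⟩ := plane_sylow hF D
  have hvb0 : sq2 F vb ≠ 0 := fun h => hvbsq (h ▸ IsSquare.zero)
  obtain ⟨T, hTc, Θ, E, hT, hΘ, -, hE⟩ := tex 2 k
  have hX2 : ∀ π ∈ Θ ∪ E, π * π = 1 := by
    rintro π (h | h)
    · rw [← pow_two]; exact (hΘ π h).1
    · rw [← pow_two]; exact (hE π h).1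
  refine ⟨W.wr D T, ?_, ?_⟩
  · refine ⟨{w | ∃ (i : Fin k) (v : Fin 2 → F), sq2 F v ≠ 0 ∧ reflO' (sq2 F) v ∈ D ∧ w = emb i v},
      W.Pm '' (Θ ∪ E), ?_, ?_, ?_, ?_, ?_, ?_⟩
    · rintro w ⟨i, v, hv, -, rfl⟩
      rw [Qpow_emb]; exact hv
    · rintro y ⟨π, hπ, rfl⟩
      refine ⟨Pm_mem_Omega k W hW π (hX2 π hπ), ?_⟩
      rw [← map_mul, hX2 π hπ, map_one]
    · rw [wr_eq_closure W D T _ _ hDgen hT]
      congr 2
      ext g
      constructor
      · rintro ⟨i, d, ⟨v, ⟨hv, hvD⟩, rfl⟩, rfl⟩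
        exact ⟨emb i v, ⟨i, v, hv, hvD, rfl⟩, (B_single_refl (sq2 F) k W hW i v hv).symm⟩
      · rintro ⟨w, ⟨i, v, hv, hvD, rfl⟩, rfl⟩
        exact ⟨i, _, ⟨v, ⟨hv, hvD⟩, rfl⟩, (B_single_refl (sq2 F) k W hW i v hv).symm⟩
    · have h01 : (⟨0, by omega⟩ : Fin k) ≠ ⟨1, by omega⟩ := by
        intro h; simpa using congrArg Fin.val h
      refine ⟨emb ⟨0, by omega⟩ va, ⟨_, va, hva0, hvaD, rfl⟩, emb ⟨0, by omega⟩ vb,
        ⟨_, vb, hvb0, hvbD, rfl⟩, emb ⟨1, by omega⟩ va, ⟨_, va, hva0, hvaD, rfl⟩,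
        emb ⟨1, by omega⟩ vb, ⟨_, vb, hvb0, hvbD, rfl⟩, ?_, ?_, ?_, ?_,
        polar_emb _ _ _ _ h01 _ _, polar_emb _ _ _ _ h01 _ _, polar_emb _ _ _ _ h01 _ _,
        polar_emb _ _ _ _ h01 _ _, ?_⟩
      · rw [Qpow_emb]; exact hvasq
      · rw [Qpow_emb]; exact hvbsq
      · rw [Qpow_emb]; exact hvasq
      · rw [Qpow_emb]; exact hvbsq
      · rintro w ⟨i, v, -, -, rfl⟩
        by_cases hi : i = ⟨0, by omega⟩
        · right
          subst hi
          exact ⟨polar_emb _ _ _ _ h01 _ _, polar_emb _ _ _ _ h01 _ _⟩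
        · left
          exact ⟨polar_emb _ _ _ _ hi _ _, polar_emb _ _ _ _ hi _ _⟩
    · intro z hz; exact absurd hz (Set.notMem_empty z)
    · intro z hz; exact absurd hz (Set.notMem_empty z)
  · rw [card_wr, hDc, hTc, ← pow_mul, ← pow_add]

theorem model_good (hF : Odd (Fintype.card F)) (h2 : (2 : F) ≠ 0) (k : ℕ) (hk : 2 ≤ k) {j : ℕ}
    (hj : j ≤ 2) (c : Fin j → F) (hc : ∀ l, c l ≠ 0) :
    ∃ (S : Subgroup (OG (Qfin k c))) (Z : Set ((Fin 2 × Fin k) ⊕ Fin j → F)),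
      Good (Qfin k c) S Z ∧
      Nat.card S = 2 ^ ((Nat.card (OG (sq2 F))).factorization 2 * k
        + (k.factorial).factorization 2 + j) := by
  obtain ⟨S₀, hS₀, hc₀⟩ := pow_good hF k hk
  obtain ⟨S₁, hS₁, hc₁⟩ := emb_sum h2 (Qpow (sq2 F) k) (wss c) S₀ ∅ hS₀
  rw [hc₀] at hc₁
  have hmem : ∀ l : Fin j, (Pi.single (Sum.inr l) 1 : (Fin 2 × Fin k) ⊕ Fin j → F)
      ∈ {z : (Fin 2 × Fin k) ⊕ Fin j → F | ∀ a, z (Sum.inl a) = 0} := by
    intro l a
    simp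
  have hQ : ∀ l : Fin j, Qfin k c (Pi.single (Sum.inr l) 1) ≠ 0 := by
    intro l; rw [Qfin_single]; exact hc l
  rcases Nat.lt_or_ge j 1 with h0 | h1
  · obtain rfl : j = 0 := by omega
    exact ⟨S₁, _, hS₁, by rw [hc₁]; rfl⟩
  · obtain ⟨hS₂, hc₂⟩ := add_line h2 (Qfin k c) S₁ _ hS₁ _ (hmem ⟨0, by omega⟩) (hQ _)
    rcases Nat.lt_or_ge j 2 with h0 | h2'
    · obtain rfl : j = 1 := by omega
      exact ⟨_, _, hS₂, by rw [hc₂, hc₁, pow_succ, mul_comm]⟩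
    · obtain rfl : j = 2 := by omega
      obtain ⟨hS₃, hc₃⟩ := add_line h2 (Qfin k c) _ _ hS₂ (Pi.single (Sum.inr 1) 1)
        ⟨hmem 1, polar_Qfin_single k c _ _ (by intro h; simpa using congrArg Fin.val h)⟩ (hQ _)
      exact ⟨_, _, hS₃, by rw [hc₃, hc₂, hc₁]; ring⟩

theorem gen_thm (hF : Odd (Fintype.card F)) {ι : Type} [Fintype ι] [DecidableEq ι]
    (Q : QuadraticForm F (ι → F)) (hQ : (gram Q).det ≠ 0) (k j : ℕ) (hk : 2 ≤ k) (hj : j ≤ 2)
    (hcard : Fintype.card ι = 2 * k + j) (c : Fin j → F) (hc : ∀ l, c l ≠ 0)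
    (hsq : IsSquare ((gram Q).det * (2 ^ j * ∏ l, c l)))
    (hG : ¬ 2 ^ (dd (Fintype.card F) * k + (k.factorial).factorization 2 + j + 1)
      ∣ Nat.card (OG Q)) : ElemAb 2 ↥(Cfsg.Omega F ⇑Q) := by
  have h2 : (2 : F) ≠ 0 := Cfsg.Agent.Lib.Helper49Forms.two_ne_zero_of_odd rfl hF
  have hdet := det_gram_Qfin (F := F) k c
  have hne : (gram (Qfin k c)).det ≠ 0 := by
    rw [hdet]
    exact mul_ne_zero (pow_ne_zero _ h2) (Finset.prod_ne_zero_iff.2 fun l _ => hc l)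
  obtain ⟨e, he⟩ := classify h2 Q (Qfin k c) hQ hne
    (by rw [hcard]; simp [Fintype.card_sum, Fintype.card_prod]) (by
      obtain ⟨s, hs⟩ := hsq
      refine ⟨s * 2 ^ k, ?_⟩
      rw [hdet]
      have : (2 : F) ^ (2 * k + j) = 2 ^ j * (2 ^ k * 2 ^ k) := by ring
      rw [this]
      linear_combination (2 ^ k * 2 ^ k) * hs)
  obtain ⟨φ⟩ := iso_of_isometry Q (Qfin k c) e he
  obtain ⟨S, Z, hS, hSc⟩ := model_good hF h2 k hk hj c hc
  have hdd : (Nat.card (OG (sq2 F))).factorization 2 = dd (Fintype.card F) := by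
    rw [card_plane hF]; rfl
  rw [hdd] at hSc
  have h3 := fin_thm h2 (Qfin k c) S Z hS _ hSc (by rw [← Nat.card_congr φ.toEquiv]; exact hG)
  exact elemAb_commutator_congr 2 φ.symm h3


open Cfsg.Agent.Lib.Helper49Forms Cfsg.Agent.Lib.Helper49Disc Cfsg.Agent.Lib.Helper49OddForm

theorem one_lt_card : 1 < Fintype.card F := Fintype.one_lt_card

theorem s4629 (hF : Odd (Fintype.card F)) (m : ℕ) (hm : 3 ≤ m) :
    ElemAb 2 ↥(Cfsg.Omega F (Cfsg.quadFormOdd m F)) := by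
  have h2 : (2 : F) ≠ 0 := two_ne_zero_of_odd rfl hF
  have hQ : (gram (QOdd m F)).det ≠ 0 := det_gram_ne_zero _ (QOdd_nondegenerate h2 m)
  have key := gen_thm hF (QOdd m F) hQ m 1 (by omega) (by omega)
    (by simp [Fintype.card_sum]; omega) (fun _ => 2 * (gram (QOdd m F)).det)
    (fun _ => mul_ne_zero h2 hQ) ⟨2 * (gram (QOdd m F)).det, by simp; ring⟩ (by
      have hc := Cfsg.Agent.S0286.result (F := F) rfl hF m
      rw [← coe_QOdd] at hc
      rw [hc]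
      exact arith_odd _ hF one_lt_card m)
  rwa [coe_QOdd] at key

theorem mod_four (hF : Odd (Fintype.card F)) :
    Fintype.card F % 4 = 1 ∨ Fintype.card F % 4 = 3 := by
  obtain ⟨k, hk⟩ := hF
  omega

theorem isSquare_neg_one_pow (hF : Odd (Fintype.card F)) (m : ℕ) :
    IsSquare ((-1 : F) ^ m) ↔ (Even m ∨ Fintype.card F % 4 = 1) := by
  constructor
  · intro h
    by_contra hcon
    push Not at hcon
    obtain ⟨h1, h3⟩ := hcon
    rw [Nat.not_even_iff_odd] at h1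
    rw [h1.neg_one_pow, FiniteField.isSquare_neg_one_iff] at h
    rcases mod_four hF with h4 | h4
    · exact h3 h4
    · exact h h4
  · rintro (h | h)
    · rw [h.neg_one_pow]; exact IsSquare.one
    · exact (FiniteField.isSquare_neg_one_iff.2 (by omega)).pow m

theorem even_thm (hF : Odd (Fintype.card F)) {ι : Type} [Fintype ι] [DecidableEq ι]
    (Q : QuadraticForm F (ι → F)) (hQ : (gram Q).det ≠ 0) (m : ℕ)
    (hcard : Fintype.card ι = 2 * m)
    (h : (2 ≤ m ∧ IsSquare (gram Q).det ∧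
        ¬ 2 ^ (dd (Fintype.card F) * m + (m.factorial).factorization 2 + 0 + 1)
          ∣ Nat.card (OG Q)) ∨
      (3 ≤ m ∧ ¬ 2 ^ (dd (Fintype.card F) * (m - 1) + ((m - 1).factorial).factorization 2 + 2 + 1)
          ∣ Nat.card (OG Q))) : ElemAb 2 ↥(Cfsg.Omega F ⇑Q) := by
  rcases h with ⟨hm, hsq, hG⟩ | ⟨hm, hG⟩
  · exact gen_thm hF Q hQ m 0 hm (by omega) (by omega) (fun l => l.elim0) (fun l => l.elim0)
      (by simpa using hsq) hG
  · exact gen_thm hF Q hQ (m - 1) 2 (by omega) (by omega) (by omega) ![1, (gram Q).det]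
      (by intro l; fin_cases l <;> simp [hQ]) ⟨2 * (gram Q).det, by simp; ring⟩ hG

theorem s4630 (hF : Odd (Fintype.card F)) (m : ℕ) (hm : 1 ≤ m) (hm' : Even m ∨ 4 ≤ m) :
    ElemAb 2 ↥(Cfsg.Omega F (Cfsg.quadFormPlus m F)) := by
  have hdet := det_gram_QPlus (F := F) m
  have hQ : (gram (QPlus m F)).det ≠ 0 := by rw [hdet]; exact pow_ne_zero _ (by simp)
  have hc := Cfsg.Agent.S0287.result (F := F) rfl m hm
  rw [← coe_QPlus] at hc
  have key : ElemAb 2 ↥(Cfsg.Omega F ⇑(QPlus m F)) := by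
    apply even_thm hF (QPlus m F) hQ m (by simp [Fintype.card_sum]; omega)
    by_cases h : Even m ∨ Fintype.card F % 4 = 1
    · left
      refine ⟨?_, ?_, ?_⟩
      · rcases hm' with ⟨r, hr⟩ | h4 <;> omega
      · rw [hdet]; exact (isSquare_neg_one_pow hF m).2 h
      · rw [hc]; exact arith_plus_sq _ hF one_lt_card m hm h
    · right
      push Not at h
      have hodd : Odd m := Nat.not_even_iff_odd.1 h.1
      have h3 : Fintype.card F % 4 = 3 := (mod_four hF).resolve_left h.2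
      refine ⟨?_, ?_⟩
      · rcases hm' with h' | h4
        · exact absurd h' h.1
        · omega
      · rw [hc]; exact arith_plus_nsq _ hF one_lt_card m hm ⟨hodd, h3⟩
  rwa [coe_QPlus] at key

theorem s4631 (hF : Odd (Fintype.card F)) (m : ℕ) (hm : 4 ≤ m) (a b : F)
    (hab : ∀ z₁ z₂ : F, z₁ ^ 2 + a * z₁ * z₂ + b * z₂ ^ 2 = 0 → z₁ = 0 ∧ z₂ = 0) :
    ElemAb 2 ↥(Cfsg.Omega F (Cfsg.quadFormMinus (m - 1) F a b)) := by
  have h2 : (2 : F) ≠ 0 := two_ne_zero_of_odd rfl hF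
  have hns := not_isSquare_disc h2 hab
  have hne : a ^ 2 - 4 * b ≠ 0 := fun h => hns (h ▸ IsSquare.zero)
  have hdet : (gram (QMinus (m - 1) F a b)).det = (-1) ^ m * (a ^ 2 - 4 * b) := by
    rw [det_gram_QMinus]
    obtain ⟨r, rfl⟩ : ∃ r, m = r + 1 := ⟨m - 1, by omega⟩
    simp only [Nat.add_sub_cancel]
    ring
  have hQ : (gram (QMinus (m - 1) F a b)).det ≠ 0 := by
    rw [hdet]; exact mul_ne_zero (pow_ne_zero _ (by simp)) hne
  have hc := Cfsg.Agent.S0288.result (F := F) rfl m (by omega) a b hab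
  rw [← coe_QMinus] at hc
  have key : ElemAb 2 ↥(Cfsg.Omega F ⇑(QMinus (m - 1) F a b)) := by
    apply even_thm hF (QMinus (m - 1) F a b) hQ m (by simp [Fintype.card_sum]; omega)
    by_cases h : Even m ∨ Fintype.card F % 4 = 1
    · right
      exact ⟨by omega, by rw [hc]; exact arith_minus_nsq _ hF one_lt_card m (by omega) h⟩
    · left
      have h' := h
      push Not at h
      have hodd : Odd m := Nat.not_even_iff_odd.1 h.1
      have h3 : Fintype.card F % 4 = 3 := (mod_four hF).resolve_left h.2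
      refine ⟨by omega, ?_, ?_⟩
      · rw [hdet, isSquare_mul_nonsquare_iff (pow_ne_zero _ (by simp)) hns,
          isSquare_neg_one_pow hF m]
        exact h'
      · rw [hc]; exact arith_minus_sq _ hF one_lt_card m (by omega) ⟨hodd, h3⟩
  rwa [coe_QMinus] at key

end Cfsg.Agent.Lib.Helper58SylMainB
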