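import Mathlib
import Cfsg.Agent.Lib.Helper58SylHubA
import Cfsg.Agent.S0245

set_option autoImplicit false

namespace Cfsg.Agent.Lib.Helper58SylMainC

open Cfsg.Agent.Lib.Helper58SylDefs Cfsg.Agent.Lib.Helper58SylHubA

theorem s4624 {F : Type*} [Field F] [Fintype F] (hF : Odd (Fintype.card F)) (n : ℕ) :
    ElemAb 2 ↥(Matrix.symplecticGroup (Fin n) F) := by
  have : Fact (Nat.Prime 2) := ⟨Nat.prime_two⟩
  obtain ⟨W⟩ := exists_wd_sp (F := F) n
  obtain ⟨D⟩ : Nonempty (Sylow 2 (Matrix.SpecialLinearGroup (Fin 2) F)) := inferInstance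
  obtain ⟨T, hTc, Θ, E, hT, hΘ, -, hE⟩ := tex 2 n
  have hT' : T = Subgroup.closure {π | π ∈ T ∧ π ^ 2 = 1} := by
    apply le_antisymm
    · conv_lhs => rw [hT]
      rw [Subgroup.closure_le]
      intro π hπ
      apply Subgroup.subset_closure
      refine ⟨by rw [hT]; exact Subgroup.subset_closure hπ, ?_⟩
      rcases hπ with h | h
      · exact (hΘ π h).1
      · exact (hE π h).1
    · rw [Subgroup.closure_le]
      exact fun π hπ => hπ.1
  have hfin : Finite ↥(Matrix.symplecticGroup (Fin n) F) := inferInstance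
  refine wr_elemAb W 2 (D : Subgroup _) T (elemAb_sl2 hF D) hT' _ _ D.card_eq_multiplicity hTc ?_
  rw [card_sl2_val hF, Cfsg.Agent.S0245.result rfl n]
  exact arith_sp _ hF Fintype.one_lt_card n

theorem s4623a (p : ℕ) [Fact p.Prime] (n : ℕ) : ElemAb p (Equiv.Perm (Fin n)) := by
  obtain ⟨T, hTc, Θ, E, hT, hΘ, -, hE⟩ := tex p n
  refine elemAb_of_gen p T _ hTc ?_ _ hT ?_
  · rw [Nat.card_eq_fintype_card, Fintype.card_perm, Fintype.card_fin]
    exact Nat.pow_succ_factorization_not_dvd (Nat.factorial_ne_zero n) (Fact.out)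
  · rintro y (h | h)
    · rw [(hΘ y h).1]; exact one_mem _
    · rw [(hE y h).1]; exact one_mem _

theorem s4623b (p : ℕ) [Fact p.Prime] (n : ℕ) : ElemAb p ↥(alternatingGroup (Fin n)) := by
  obtain ⟨T, hTc, Θ, E, hT, hΘ, hcomm, hE⟩ := tex p n
  have hG : ¬ p ^ ((n.factorial).factorization p + 1) ∣ Nat.card (Equiv.Perm (Fin n)) := by
    rw [Nat.card_eq_fintype_card, Fintype.card_perm, Fintype.card_fin]
    exact Nat.pow_succ_factorization_not_dvd (Nat.factorial_ne_zero n) (Fact.out)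
  by_cases hp : p = 2
  · subst hp
    refine elemAb_normal 2 (alternatingGroup (Fin n)) T _ hTc hG _
      (alt_gen n T Θ E hT (fun θ h => ⟨(hΘ θ h).1, (hΘ θ h).2 rfl⟩) hcomm
        (fun ε h => ⟨(hE ε h).1, (hE ε h).2 rfl⟩)) ?_
    intro y hy
    rw [hy.2.2]; exact one_mem _
  · have hodd : Odd p := (Fact.out : p.Prime).odd_of_ne_two hp
    have hpow : ∀ y ∈ Θ ∪ E, y ^ p = 1 := by
      rintro y (h | h)
      · exact (hΘ y h).1
      · exact (hE y h).1
    have hle : T ≤ alternatingGroup (Fin n) := by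
      rw [hT, Subgroup.closure_le]
      intro y hy
      have h1 : Equiv.Perm.sign y ^ p = 1 := by rw [← map_pow, hpow y hy, map_one]
      rcases Int.units_eq_one_or (Equiv.Perm.sign y) with h | h
      · exact Equiv.Perm.mem_alternatingGroup.2 h
      · rw [h, hodd.neg_one_pow] at h1
        exact absurd h1 (by decide)
    refine elemAb_normal p (alternatingGroup (Fin n)) T _ hTc hG (Θ ∪ E)
      (by rw [inf_eq_left.2 hle]; exact hT) ?_
    intro y hy
    rw [hpow y hy]; exact one_mem _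

end Cfsg.Agent.Lib.Helper58SylMainC
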