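import Mathlib
import Cfsg.Agent.Lib.Helper58SylHubA
import Cfsg.Agent.Lib.Helper58SylHubD

set_option autoImplicit false

namespace Cfsg.Agent.Lib.Helper58SylMainD

open Cfsg.Agent.Lib.Helper58SylDefs Cfsg.Agent.Lib.Helper58SylHubD
open Cfsg.Agent.Lib.Helper58SylHubA (tex elemAb_congr)
open Matrix

variable {F : Type*} [Field F] [Fintype F]

theorem tex2 (n : ℕ) : ∃ T : Subgroup (Equiv.Perm (Fin n)),
    Nat.card T = 2 ^ ((n.factorial).factorization 2) ∧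
      T = Subgroup.closure {π | π ∈ T ∧ π ^ 2 = 1} := by
  have : Fact (Nat.Prime 2) := ⟨Nat.prime_two⟩
  obtain ⟨T, hTc, Θ, E, hT, hΘ, -, hE⟩ := tex 2 n
  refine ⟨T, hTc, ?_⟩
  apply le_antisymm
  · conv_lhs => rw [hT]
    rw [Subgroup.closure_le]
    intro π hπ
    apply Subgroup.subset_closure
    refine ⟨by rw [hT]; exact Subgroup.subset_closure hπ, ?_⟩
    rcases hπ with h | h
    · exact (hΘ π h).1
    · exact (hE π h).1
  · rw [Subgroup.closure_le]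
    exact fun π hπ => hπ.1

theorem neg_one_ne (h2 : (2 : F) ≠ 0) : (-1 : Fˣ) ≠ 1 := by
  intro h
  have h3 : ((-1 : Fˣ) : F) = 1 := by rw [h]; rfl
  simp only [Units.val_neg, Units.val_one] at h3
  apply h2
  linear_combination -h3

theorem two_ne (hF : Odd (Fintype.card F)) : (2 : F) ≠ 0 := by
  intro h
  have hchar : ringChar F = 2 := by
    have : ringChar F ∣ 2 := by
      rw [← ringChar.spec]; exact_mod_cast h
    rcases (Nat.dvd_prime Nat.prime_two).1 this with h1 | h1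
    · exact absurd h1 (CharP.ringChar_ne_one)
    · exact h1
  have := FiniteField.even_card_of_char_two hchar
  rw [Nat.odd_iff] at hF
  omega

theorem sl_three (hq : Fintype.card F % 4 = 3) (m j : ℕ) (hm : 1 ≤ m) (hj : j ≤ 1) :
    ElemAb 2 (Matrix.SpecialLinearGroup (Fin (2 * m + j)) F) := by
  have : Fact (Nat.Prime 2) := ⟨Nat.prime_two⟩
  have hF : Odd (Fintype.card F) := by
    rw [Nat.odd_iff]; omega
  have h2 := two_ne hF
  obtain ⟨W, hB, hPm, hz⟩ := exists_wd_gl (F := F) m j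
  obtain ⟨R₂⟩ : Nonempty (Sylow 2 (GL (Fin 2) F)) := inferInstance
  obtain ⟨⟨s, hs, hs2, hsd⟩, hdet, hsq⟩ := gl2_sylow hq R₂
  obtain ⟨T, hTc, hT⟩ := tex2 m
  have hcard : Fintype.card ((Fin 2 × Fin m) ⊕ Fin j) = 2 * m + j := by
    simp [Fintype.card_sum, Fintype.card_prod]
  have hR : Nat.card (R₂ : Subgroup (GL (Fin 2) F)) = 2 ^ (dd (Fintype.card F) + 1) := by
    rw [R₂.card_eq_multiplicity, card_gl 2 (by simp), val_gl2 _ hq]
  have hzz : ∃ z : GL ((Fin 2 × Fin m) ⊕ Fin j) F, (j = 0 ∧ z = 1) ∨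
      (j = 1 ∧ z * z = 1 ∧ Matrix.GeneralLinearGroup.det z = -1 ∧
        (∀ d, z * W.B d = W.B d * z) ∧ (∀ π, z * W.Pm π = W.Pm π * z) ∧
        ∀ d π, z ≠ W.B d * W.Pm π) := by
    rcases Nat.lt_or_ge j 1 with h0 | h1
    · exact ⟨1, Or.inl ⟨by omega, rfl⟩⟩
    · obtain ⟨z, h⟩ := hz h1 h2
      exact ⟨z, Or.inr ⟨by omega, h⟩⟩
  obtain ⟨z, hz'⟩ := hzz
  have key := sl3_abs hm W Matrix.GeneralLinearGroup.det Matrix.GeneralLinearGroup.det (-1)
    (neg_one_ne h2) (by simp) hB hPm (R₂ : Subgroup (GL (Fin 2) F)) _ hR s hs hs2 hsd hdet hsq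
    T _ hTc hT j z hz' (by
      rw [card_gl _ hcard]
      exact arith_gl3 _ hq m j hj)
  obtain ⟨φ⟩ := sl_iso (F := F) (κ := (Fin 2 × Fin m) ⊕ Fin j) _ hcard
  exact elemAb_congr 2 φ.symm key

theorem sl_one (hq : Fintype.card F % 4 = 1) (j : ℕ) :
    ElemAb 2 (Matrix.SpecialLinearGroup (Fin (2 ^ j)) F) := by
  have : Fact (Nat.Prime 2) := ⟨Nat.prime_two⟩
  have hF : Odd (Fintype.card F) := by
    rw [Nat.odd_iff]; omega
  have h2 := two_ne hF
  obtain ⟨W, hB, hPm1, hPm2⟩ := exists_wd_mon (F := F) (2 ^ j)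
  obtain ⟨C⟩ : Nonempty (Sylow 2 Fˣ) := inferInstance
  obtain ⟨c₀, hc0, hc₀⟩ := c_facts hq
  obtain ⟨T, hTc, hT⟩ := tex2 (2 ^ j)
  have hC : Nat.card (C : Subgroup Fˣ) = 2 ^ ((Fintype.card F - 1).factorization 2) := by
    classical
    rw [C.card_eq_multiplicity, Nat.card_eq_fintype_card, Fintype.card_units]
  have key := sl1_abs (Nat.one_le_two_pow) W Matrix.GeneralLinearGroup.det (-1) c₀
    (neg_one_ne h2) hc0 (by simp) hB hPm1 hPm2 (C : Subgroup Fˣ) _ hC (hc₀ C) T _ hTc hT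
    (tex_trans j T hTc) (by
      rw [card_gl _ (Fintype.card_fin _)]
      exact arith_gl1 _ hq Fintype.one_lt_card _)
  obtain ⟨φ⟩ := sl_iso (F := F) (κ := Fin (2 ^ j)) _ (Fintype.card_fin _)
  exact elemAb_congr 2 φ.symm key

theorem s4628 (hq : 4 ∣ Fintype.card F + 1) (m : ℕ) (hm : 1 ≤ m) :
    ElemAb 2 (Matrix.SpecialLinearGroup (Fin (2 * m + 1)) F) :=
  sl_three (by omega) m 1 hm le_rfl

theorem s4627 (hF : Odd (Fintype.card F)) (m : ℕ) (hm : 1 ≤ m)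
    (hq : 4 ∣ Fintype.card F + 1 ∨ (4 ∣ Fintype.card F - 1 ∧ ∃ j : ℕ, m = 2 ^ j)) :
    ElemAb 2 (Matrix.SpecialLinearGroup (Fin (2 * m)) F) := by
  rcases hq with h | ⟨h, j, rfl⟩
  · exact sl_three (by omega) m 0 hm (by omega)
  · have h1 : 1 < Fintype.card F := Fintype.one_lt_card
    have := sl_one (F := F) (by omega) (j + 1)
    rwa [pow_succ, mul_comm] at this

end Cfsg.Agent.Lib.Helper58SylMainD
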