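import Mathlib
set_option autoImplicit false

namespace Cfsg.Agent.Lib.Helper75Quat

universe u

/-- an action of the quaternion relations on an abelian group -/
def QAct (A : Type u) [AddCommGroup A] (i j : A →+ A) : Prop :=
  (∀ x, i (i x) = -x) ∧ (∀ x, j (j x) = -x) ∧ (∀ x, i (j x) = - j (i x))

/-- restriction of an endomorphism to an invariant subgroup -/
def restr {A : Type u} [AddCommGroup A] (i : A →+ A) (S : AddSubgroup A) (h : ∀ x ∈ S, i x ∈ S) :
    S →+ S :=
  (i.comp S.subtype).codRestrict S (fun x => h x x.2)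

theorem restr_coe {A : Type u} [AddCommGroup A] (i : A →+ A) (S : AddSubgroup A)
    (h : ∀ x ∈ S, i x ∈ S) (x : S) : ((restr i S h x : S) : A) = i x := rfl

theorem QAct.restrict {A : Type u} [AddCommGroup A] {i j : A →+ A} (h : QAct A i j)
    (S : AddSubgroup A) (hi : ∀ x ∈ S, i x ∈ S) (hj : ∀ x ∈ S, j x ∈ S) :
    QAct S (restr i S hi) (restr j S hj) := by
  refine ⟨fun x => ?_, fun x => ?_, fun x => ?_⟩
  · apply Subtype.ext
    rw [restr_coe, restr_coe, h.1]; rfl
  · apply Subtype.ext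
    rw [restr_coe, restr_coe, h.2.1]; rfl
  · apply Subtype.ext
    rw [restr_coe, restr_coe, h.2.2]; rfl

theorem card_ker_mul_card_range {V : Type u} [AddCommGroup V] (f : V →+ V) :
    Nat.card f.ker * Nat.card f.range = Nat.card V := by
  rw [← AddSubgroup.index_ker, AddSubgroup.card_mul_index]

theorem isSquare_card_of_torsion {V : Type u} [AddCommGroup V] [Finite V] (r : ℕ) [Fact r.Prime]
    (hr2 : Odd r) (hV : ∀ v : V, r • v = 0) {i j : V →+ V} (h : QAct V i j) :
    IsSquare (Nat.card V) := by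
  obtain ⟨hi, hj, hij⟩ := h
  obtain ⟨a, b, k, -, -, hab⟩ := Int.exists_sq_add_sq_add_one_eq_mul r
  have hzero : ∀ v : V, ((a : ℤ) ^ 2 + (b : ℤ) ^ 2 + 1) • v = 0 := by
    intro v
    have : ((a : ℤ) ^ 2 + (b : ℤ) ^ 2 + 1) = ((k * r : ℕ) : ℤ) := by rw [← hab]; push_cast; ring
    rw [this, natCast_zsmul, mul_smul, hV, smul_zero]
  have hjij : ∀ v, j (i (j v)) = i v := by
    intro v
    rw [hij, map_neg, hj, neg_neg]
  have hiji : ∀ v, i (j (i v)) = j v := by
    intro v
    rw [hij, hi, map_neg, neg_neg]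
  let w : V →+ V := (a : ℤ) • i + (b : ℤ) • j
  have hw : ∀ v, w v = (a : ℤ) • i v + (b : ℤ) • j v := fun v => rfl
  have hww : ∀ v, w (w v) = v := by
    intro v
    rw [hw (w v), hw v, map_add, map_add, map_zsmul, map_zsmul, map_zsmul, map_zsmul, hi, hj, hij]
    have := hzero v
    have e : (a : ℤ) • ((a : ℤ) • -v + (b : ℤ) • -j (i v)) + (b : ℤ) • ((a : ℤ) • j (i v) + (b : ℤ) • -v)
        = v - ((a : ℤ) ^ 2 + (b : ℤ) ^ 2 + 1) • v := by module
    rw [e, this, sub_zero]
  have hkw : ∀ v, w (i (j v)) = - i (j (w v)) := by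
    intro v
    rw [hw (i (j v)), hw v, map_add, map_add, map_zsmul, map_zsmul, map_zsmul, map_zsmul, hi, hj,
      hjij, hiji, map_neg]
    module
  have hkk : ∀ v, i (j (i (j v))) = -v := by
    intro v
    rw [hjij, hi]
  let f : V →+ V := AddMonoidHom.id V - w
  let g : V →+ V := AddMonoidHom.id V + w
  have hf : ∀ v, f v = v - w v := fun v => rfl
  have hg : ∀ v, g v = v + w v := fun v => rfl
  have hrange : f.range = g.ker := by
    ext u
    rw [AddMonoidHom.mem_range, AddMonoidHom.mem_ker, hg]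
    constructor
    · rintro ⟨v, rfl⟩
      rw [hf, map_sub, hww]; abel
    · intro hu
      obtain ⟨c, hc⟩ := hr2
      refine ⟨(c + 1) • u, ?_⟩
      have hwu : w u = -u := by
        rw [eq_neg_iff_add_eq_zero, add_comm]; exact hu
      rw [hf, map_nsmul, hwu]
      have h0 := hV u
      rw [hc] at h0
      have e : (c + 1) • u - (c + 1) • -u = u + (2 * c + 1) • u := by module
      rw [e, h0, add_zero]
  have hequiv : Nat.card f.ker = Nat.card g.ker := by
    apply Nat.card_congr
    refine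
      { toFun := fun v => ⟨i (j v), ?_⟩
        invFun := fun u => ⟨- i (j u), ?_⟩
        left_inv := ?_
        right_inv := ?_ }
    · have hv : f v = 0 := v.2
      rw [hf, sub_eq_zero] at hv
      rw [AddMonoidHom.mem_ker, hg, hkw, ← hv]; abel
    · have hu : g u = 0 := u.2
      rw [hg] at hu
      have hwu : w u = -u := by
        rw [eq_neg_iff_add_eq_zero, add_comm]; exact hu
      rw [AddMonoidHom.mem_ker, hf, map_neg, hkw, hwu, map_neg, map_neg]; abel
    · intro v
      apply Subtype.ext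
      change - i (j (i (j (v : V)))) = v
      rw [hkk, neg_neg]
    · intro u
      apply Subtype.ext
      change i (j (- i (j (u : V)))) = u
      rw [map_neg, map_neg, hkk, neg_neg]
  have := card_ker_mul_card_range f
  rw [hrange, hequiv] at this
  exact ⟨_, this.symm⟩

theorem isSquare_card_aux : ∀ (n : ℕ) (A : Type u) [AddCommGroup A] [Finite A] (i j : A →+ A),
    QAct A i j → Odd (Nat.card A) → Nat.card A = n → IsSquare (Nat.card A) := by
  intro n
  induction n using Nat.strong_induction_on with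
  | _ n ih =>
    intro A _ _ i j h hodd hn
    by_cases h1 : Nat.card A = 1
    · rw [h1]; exact ⟨1, rfl⟩
    set r := (Nat.card A).minFac with hr
    have hrp : r.Prime := Nat.minFac_prime h1
    have : Fact r.Prime := ⟨hrp⟩
    have hrd : r ∣ Nat.card A := Nat.minFac_dvd _
    have hrodd : Odd r := hodd.of_dvd_nat hrd
    let φ : A →+ A := nsmulAddMonoidHom r
    have hφ : ∀ x, φ x = r • x := fun x => rfl
    have hmul := card_ker_mul_card_range φ
    have hiT : ∀ x ∈ φ.ker, i x ∈ φ.ker := by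
      intro x hx
      rw [AddMonoidHom.mem_ker, hφ] at hx ⊢
      rw [← map_nsmul, hx, map_zero]
    have hjT : ∀ x ∈ φ.ker, j x ∈ φ.ker := by
      intro x hx
      rw [AddMonoidHom.mem_ker, hφ] at hx ⊢
      rw [← map_nsmul, hx, map_zero]
    have hiR : ∀ x ∈ φ.range, i x ∈ φ.range := by
      rintro _ ⟨y, rfl⟩
      exact ⟨i y, by rw [hφ, hφ, map_nsmul]⟩
    have hjR : ∀ x ∈ φ.range, j x ∈ φ.range := by
      rintro _ ⟨y, rfl⟩
      exact ⟨j y, by rw [hφ, hφ, map_nsmul]⟩
    have hT : IsSquare (Nat.card φ.ker) := by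
      apply isSquare_card_of_torsion r hrodd _ (h.restrict φ.ker hiT hjT)
      intro v
      apply Subtype.ext
      exact v.2
    have hTgt : 1 < Nat.card φ.ker := by
      obtain ⟨x, hx⟩ := exists_prime_addOrderOf_dvd_card' r hrd
      have hx0 : x ≠ 0 := by
        rintro rfl
        rw [addOrderOf_zero] at hx
        exact hrp.one_lt.ne hx
      have hxk : x ∈ φ.ker := by
        rw [AddMonoidHom.mem_ker, hφ, ← hx]; exact addOrderOf_nsmul_eq_zero x
      rw [Finite.one_lt_card_iff_nontrivial]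
      exact ⟨⟨⟨x, hxk⟩, 0, fun e => hx0 (congrArg Subtype.val e)⟩⟩
    have hpos : 0 < Nat.card φ.range := Nat.card_pos
    have hRlt : Nat.card φ.range < n := by
      rw [← hn, ← hmul]
      nlinarith
    have hRodd : Odd (Nat.card φ.range) := hodd.of_dvd_nat ⟨_, by rw [mul_comm]; exact hmul.symm⟩
    have hR : IsSquare (Nat.card φ.range) :=
      ih _ hRlt φ.range _ _ (h.restrict φ.range hiR hjR) hRodd rfl
    rw [← hmul]
    exact hT.mul hR

theorem isSquare_card {A : Type u} [AddCommGroup A] [Finite A] {i j : A →+ A}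
    (h : QAct A i j) (hodd : Odd (Nat.card A)) : IsSquare (Nat.card A) :=
  isSquare_card_aux _ A i j h hodd rfl

theorem isSquare_card_of_conj {L : Type u} [Group L] (N : Subgroup L) [N.Normal] [Finite N]
    (hcomm : ∀ x ∈ N, ∀ y ∈ N, x * y = y * x) (i0 j0 s : L) (hii : i0 * i0 = s) (hjj : j0 * j0 = s)
    (hij : i0 * j0 = j0 * i0 * s) (hs : ∀ k ∈ N, s * k * s⁻¹ = k⁻¹) (hodd : Odd (Nat.card N)) :
    IsSquare (Nat.card N) := by
  let _ : CommGroup N :=
    { (inferInstance : Group N) with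
      mul_comm := fun x y => Subtype.ext (hcomm x x.2 y y.2) }
  let ci : Additive N →+ Additive N := MonoidHom.toAdditive (MulAut.conjNormal i0 : MulAut N).toMonoidHom
  let cj : Additive N →+ Additive N := MonoidHom.toAdditive (MulAut.conjNormal j0 : MulAut N).toMonoidHom
  have hQ : QAct (Additive N) ci cj := by
    refine ⟨fun x => ?_, fun x => ?_, fun x => ?_⟩
    · apply Subtype.ext
      change i0 * (i0 * ((Additive.toMul x : N) : L) * i0⁻¹) * i0⁻¹ = ((Additive.toMul x : N) : L)⁻¹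
      rw [← hs _ (Additive.toMul x : N).2, ← hii]; group
    · apply Subtype.ext
      change j0 * (j0 * ((Additive.toMul x : N) : L) * j0⁻¹) * j0⁻¹ = ((Additive.toMul x : N) : L)⁻¹
      rw [← hs _ (Additive.toMul x : N).2, ← hjj]; group
    · apply Subtype.ext
      change i0 * (j0 * ((Additive.toMul x : N) : L) * j0⁻¹) * i0⁻¹ =
        (j0 * (i0 * ((Additive.toMul x : N) : L) * i0⁻¹) * j0⁻¹)⁻¹
      have e1 : i0 * (j0 * ((Additive.toMul x : N) : L) * j0⁻¹) * i0⁻¹ =
          (i0 * j0) * ((Additive.toMul x : N) : L) * (i0 * j0)⁻¹ := by group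
      have e2 : (j0 * i0 * s) * ((Additive.toMul x : N) : L) * (j0 * i0 * s)⁻¹ =
          j0 * (i0 * (s * ((Additive.toMul x : N) : L) * s⁻¹) * i0⁻¹) * j0⁻¹ := by group
      rw [e1, hij, e2, hs _ (Additive.toMul x : N).2]; group
  exact isSquare_card (A := Additive N) hQ hodd

open QuaternionGroup in
theorem quat_elements (m : ℕ) : ∃ α ξ z : QuaternionGroup (2 ^ (m + 1)),
    α * α = z ∧ ξ * ξ = z ∧ α * ξ = ξ * α * z ∧ z ≠ 1 ∧ z * z = 1 := by
  have h0 : ((2 * 2 ^ (m + 1) : ℕ) : ZMod (2 * 2 ^ (m + 1))) = 0 := ZMod.natCast_self _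
  push_cast at h0
  refine ⟨a ((2 ^ m : ℕ) : ZMod (2 * 2 ^ (m + 1))), xa 0,
    a ((2 ^ (m + 1) : ℕ) : ZMod (2 * 2 ^ (m + 1))), ?_, ?_, ?_, ?_, ?_⟩
  · rw [a_mul_a]; congr 1; push_cast; ring
  · rw [xa_mul_xa]; congr 1; push_cast; ring
  · rw [a_mul_xa, xa_mul_a, xa_mul_a]; congr 1; push_cast
    have : (0 : ZMod (2 * 2 ^ (m + 1))) + 2 ^ m + 2 ^ (m + 1) = 2 * 2 ^ (m + 1) - 2 ^ m := by ring
    rw [this, h0]
  · rw [one_def]
    intro h
    have h3 := a.inj h
    rw [ZMod.natCast_eq_zero_iff] at h3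
    have hn : 0 < 2 ^ (m + 1) := by positivity
    have := Nat.le_of_dvd hn h3
    omega
  · rw [a_mul_a, one_def]; congr 1; push_cast
    rw [← h0]; ring

end Cfsg.Agent.Lib.Helper75Quat
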