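import Mathlib
import Cfsg.Prelude.Def_TwoFusion
import Cfsg.Agent.Lib.Helper75Quat

set_option autoImplicit false

namespace Cfsg.Agent.Lib.Helper59QR

open Cfsg Subgroup
open scoped Pointwise

section quat

open QuaternionGroup

/-- a (generalized) quaternion group has only one involution. -/
theorem quat_invol (m : ℕ) [NeZero m] (q : QuaternionGroup m) (hq : q * q = 1) (hq1 : q ≠ 1) :
    q = a (m : ZMod (2 * m)) := by
  have hm : 0 < m := Nat.pos_of_ne_zero (NeZero.ne m)
  have : NeZero (2 * m) := ⟨by omega⟩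
  rcases q with i | i
  · rw [a_mul_a, one_def] at hq
    have h0 : i + i = 0 := QuaternionGroup.a.inj hq
    have hi0 : i ≠ 0 := by
      rintro rfl
      exact hq1 rfl
    congr 1
    have hv : (i.val + i.val) % (2 * m) = 0 := by
      have := congrArg ZMod.val h0
      rwa [ZMod.val_add, ZMod.val_zero] at this
    have hlt := ZMod.val_lt i
    have hne : i.val ≠ 0 := by
      intro h
      exact hi0 ((ZMod.val_eq_zero i).mp h)
    have hval : i.val = m := by
      obtain ⟨c, hc⟩ := Nat.dvd_of_mod_eq_zero hv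
      have hc1 : c = 1 := by
        rcases c with _ | _ | c
        · omega
        · rfl
        · exfalso
          have : 2 * m * (c + 2) ≥ 2 * m * 2 := Nat.mul_le_mul_left _ (by omega)
          rw [← hc] at this
          omega
      subst hc1
      omega
    have h5 : ((i.val : ℕ) : ZMod (2 * m)) = (m : ZMod (2 * m)) := by rw [hval]
    rwa [ZMod.natCast_zmod_val] at h5
  · exfalso
    rw [xa_mul_xa, one_def] at hq
    have h0 : (m : ZMod (2 * m)) + i - i = 0 := QuaternionGroup.a.inj hq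
    rw [add_sub_cancel_right] at h0
    rw [ZMod.natCast_eq_zero_iff] at h0
    have := Nat.le_of_dvd hm h0
    omega

end quat

section core

variable {G : Type*} [Group G]

/-- the configuration `S = Q × R`, `Q` with a unique involution `z = [u, x]`, involutions of `R`
central in `R`. -/
structure Setup (S Q R : Subgroup G) (z u x : G) : Prop where
  prod : IsInternalDirectProduct Q R S
  zQ : z ∈ Q
  z1 : z ≠ 1
  zz : z * z = 1
  uQ : u ∈ Q
  xQ : x ∈ Q
  comm : u * x = x * u * z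
  uniq : ∀ q ∈ Q, q * q = 1 → q ≠ 1 → q = z
  hR : ∀ r ∈ R, r * r = 1 → ∀ s ∈ R, r * s = s * r

variable {S Q R : Subgroup G} {z u x : G}

theorem Setup.dec (h : Setup S Q R z u x) {s : G} (hs : s ∈ S) :
    ∃ q ∈ Q, ∃ r ∈ R, s = q * r := by
  obtain ⟨-, -, hc, -, hsup⟩ := h.prod
  have hLE : R ≤ normalizer (Q : Set G) := by
    intro r hr
    rw [mem_normalizer_iff]
    intro y
    constructor
    · intro hy
      have : r * y * r⁻¹ = y := by rw [← hc y hy r hr, mul_inv_cancel_right]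
      rwa [this]
    · intro hy
      have h2 : r⁻¹ * (r * y * r⁻¹) * r = r * y * r⁻¹ := by
        have := hc _ hy r hr
        rw [mul_assoc, this, inv_mul_cancel_left]
      have h3 : r⁻¹ * (r * y * r⁻¹) * r = y := by group
      rw [← h3, h2]; exact hy
  have := coe_mul_of_right_le_normalizer_left Q R hLE
  rw [hsup] at this
  have hs' : s ∈ ((Q : Set G) * (R : Set G)) := by rw [← this]; exact hs
  obtain ⟨q, hq, r, hr, rfl⟩ := Set.mem_mul.mp hs'
  exact ⟨q, hq, r, hr, rfl⟩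

theorem Setup.z_central (h : Setup S Q R z u x) {y : G} (hy : y ∈ Q) : y * z = z * y := by
  have h1 : y * z * y⁻¹ = z := by
    apply h.uniq _ (Q.mul_mem (Q.mul_mem hy h.zQ) (Q.inv_mem hy))
    · calc y * z * y⁻¹ * (y * z * y⁻¹) = y * (z * z) * y⁻¹ := by group
        _ = 1 := by rw [h.zz]; group
    · intro h2
      apply h.z1
      calc z = y⁻¹ * (y * z * y⁻¹) * y := by group
        _ = 1 := by rw [h2]; group
  calc y * z = y * z * y⁻¹ * y := by group
    _ = z * y := by rw [h1]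

theorem Setup.invol_central (h : Setup S Q R z u x) {t : G} (ht : t ∈ S) (htt : t * t = 1)
    {s : G} (hs : s ∈ S) : t * s = s * t := by
  obtain ⟨-, -, hc, hinf, -⟩ := h.prod
  obtain ⟨q, hq, r, hr, rfl⟩ := h.dec ht
  obtain ⟨q', hq', r', hr', rfl⟩ := h.dec hs
  have h1 : (q * q) * (r * r) = 1 := by
    calc (q * q) * (r * r) = q * (q * r) * r := by group
      _ = q * (r * q) * r := by rw [hc q hq r hr]
      _ = q * r * (q * r) := by group
      _ = 1 := htt
  have h2 : q * q ∈ Q ⊓ R := by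
    refine ⟨Q.mul_mem hq hq, ?_⟩
    have : q * q = (r * r)⁻¹ := eq_inv_of_mul_eq_one_left h1
    rw [SetLike.mem_coe, this]; exact R.inv_mem (R.mul_mem hr hr)
  rw [hinf, mem_bot] at h2
  have h3 : r * r = 1 := by rwa [h2, one_mul] at h1
  have hqc : q * q' = q' * q := by
    by_cases hq1 : q = 1
    · rw [hq1]; simp
    · rw [h.uniq q hq h2 hq1]; exact (h.z_central hq').symm
  have hrc : r * r' = r' * r := h.hR r hr h3 r' hr'
  calc q * r * (q' * r') = q * (r * q') * r' := by group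
    _ = q * (q' * r) * r' := by rw [hc q' hq' r hr]
    _ = (q * q') * (r * r') := by group
    _ = (q' * q) * (r' * r) := by rw [hqc, hrc]
    _ = q' * (q * r') * r := by group
    _ = q' * (r' * q) * r := by rw [hc q hq r' hr']
    _ = q' * r' * (q * r) := by group

theorem Setup.Q_normal (h : Setup S Q R z u x) {s y : G} (hs : s ∈ S) (hy : y ∈ Q) :
    s * y * s⁻¹ ∈ Q := by
  obtain ⟨-, -, hc, -, -⟩ := h.prod
  obtain ⟨q, hq, r, hr, rfl⟩ := h.dec hs
  have : q * r * y * (q * r)⁻¹ = q * y * q⁻¹ := by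
    calc q * r * y * (q * r)⁻¹ = q * (r * y) * r⁻¹ * q⁻¹ := by group
      _ = q * (y * r) * r⁻¹ * q⁻¹ := by rw [hc y hy r hr]
      _ = q * y * q⁻¹ := by group
  rw [this]
  exact Q.mul_mem (Q.mul_mem hq hy) (Q.inv_mem hq)

theorem exists_pow_invol (hS : IsPGroup 2 S) {c : G} (hc : c ∈ S) (hc1 : c ≠ 1) :
    ∃ k : ℕ, c ^ k * c ^ k = 1 ∧ c ^ k ≠ 1 := by
  classical
  have hex : ∃ j : ℕ, c ^ 2 ^ j = 1 := by
    obtain ⟨j, hj⟩ := hS ⟨c, hc⟩
    exact ⟨j, by simpa using congrArg Subtype.val hj⟩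
  have hj := Nat.find_spec hex
  have hmin := fun m => Nat.find_min hex (m := m)
  set j := Nat.find hex with hjdef
  have hj0 : j ≠ 0 := by
    intro h0
    rw [h0] at hj
    simp at hj
    exact hc1 hj
  obtain ⟨i, hi⟩ : ∃ i, j = i + 1 := ⟨j - 1, by omega⟩
  refine ⟨2 ^ i, ?_, hmin i (by omega)⟩
  rw [← pow_add, ← two_mul, ← pow_succ', ← hi]
  exact hj

theorem Setup.conj_z (h : Setup S Q R z u x) (hS : IsPGroup 2 S) {n : G}
    (hn : n ∈ normalizer (S : Set G)) : n * z * n⁻¹ = z ∨ n * z * n⁻¹ ∈ R := by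
  obtain ⟨hQS, hRS, hc, hinf, -⟩ := h.prod
  by_cases hz' : n * z * n⁻¹ = z
  · exact Or.inl hz'
  right
  have hnS : ∀ s ∈ S, n * s * n⁻¹ ∈ S := fun s hs => (mem_normalizer_iff.mp hn s).mp hs
  have hnS' : ∀ s ∈ S, n⁻¹ * s * n ∈ S := by
    intro s hs
    rw [mem_normalizer_iff.mp hn (n⁻¹ * s * n)]
    have : n * (n⁻¹ * s * n) * n⁻¹ = s := by group
    rwa [this]
  have cent : ∀ y ∈ Q, ∀ q ∈ Q, (n * y * n⁻¹) * q = q * (n * y * n⁻¹) := by
    intro y hy q hq
    set c := (n * y * n⁻¹) * q * (n * y * n⁻¹)⁻¹ * q⁻¹ with hcdef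
    have hcQ : c ∈ Q := Q.mul_mem (h.Q_normal (hnS y (hQS hy)) hq) (Q.inv_mem hq)
    have hcQ' : n⁻¹ * c * n ∈ Q := by
      have e : n⁻¹ * c * n = y * ((n⁻¹ * q * n) * y⁻¹ * (n⁻¹ * q * n)⁻¹) := by
        rw [hcdef]; group
      rw [e]
      exact Q.mul_mem hy (h.Q_normal (hnS' q (hQS hq)) (Q.inv_mem hy))
    have hc1 : c = 1 := by
      by_contra hne
      obtain ⟨k, hk1, hk2⟩ := exists_pow_invol hS (hQS hcQ) hne
      have e1 : c ^ k = z := h.uniq _ (Q.pow_mem hcQ k) hk1 hk2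
      have e2 : (n⁻¹ * c * n) ^ k = n⁻¹ * c ^ k * n := by
        have := conj_pow (a := n⁻¹) (b := c) (i := k)
        simpa using this
      have e3 : (n⁻¹ * c * n) ^ k = z := by
        apply h.uniq _ (Q.pow_mem hcQ' k)
        · rw [e2]
          calc n⁻¹ * c ^ k * n * (n⁻¹ * c ^ k * n) = n⁻¹ * (c ^ k * c ^ k) * n := by group
            _ = 1 := by rw [hk1]; group
        · rw [e2]
          intro h1
          apply hk2
          calc c ^ k = n * (n⁻¹ * c ^ k * n) * n⁻¹ := by group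
            _ = 1 := by rw [h1]; group
      apply hz'
      rw [e2, e1] at e3
      calc n * z * n⁻¹ = n * (n⁻¹ * z * n) * n⁻¹ := by rw [e3]
        _ = z := by group
    calc (n * y * n⁻¹) * q = c * (q * (n * y * n⁻¹)) := by rw [hcdef]; group
      _ = q * (n * y * n⁻¹) := by rw [hc1, one_mul]
  obtain ⟨q₁, hq₁, r₁, hr₁, hu'⟩ := h.dec (hnS u (hQS h.uQ))
  obtain ⟨q₂, hq₂, r₂, hr₂, hx'⟩ := h.dec (hnS x (hQS h.xQ))
  have hq12 : q₁ * q₂ = q₂ * q₁ := by
    have e : q₁ = (n * u * n⁻¹) * r₁⁻¹ := by rw [hu']; group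
    have hr : r₁⁻¹ * q₂ = q₂ * r₁⁻¹ := (hc q₂ hq₂ r₁⁻¹ (R.inv_mem hr₁)).symm
    calc q₁ * q₂ = (n * u * n⁻¹) * (r₁⁻¹ * q₂) := by rw [e]; group
      _ = ((n * u * n⁻¹) * q₂) * r₁⁻¹ := by rw [hr]; group
      _ = q₂ * ((n * u * n⁻¹) * r₁⁻¹) := by rw [cent u h.uQ q₂ hq₂]; group
      _ = q₂ * q₁ := by rw [← e]
  have hcomm' : (n * u * n⁻¹) * (n * x * n⁻¹) = (n * x * n⁻¹) * (n * u * n⁻¹) * (n * z * n⁻¹) := by
    calc (n * u * n⁻¹) * (n * x * n⁻¹) = n * (u * x) * n⁻¹ := by group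
      _ = n * (x * u * z) * n⁻¹ := by rw [h.comm]
      _ = _ := by group
  have e1 : (n * u * n⁻¹) * (n * x * n⁻¹) = (q₁ * q₂) * (r₁ * r₂) := by
    rw [hu', hx']
    calc q₁ * r₁ * (q₂ * r₂) = q₁ * (r₁ * q₂) * r₂ := by group
      _ = q₁ * (q₂ * r₁) * r₂ := by rw [hc q₂ hq₂ r₁ hr₁]
      _ = _ := by group
  have e2 : (n * x * n⁻¹) * (n * u * n⁻¹) = (q₁ * q₂) * (r₂ * r₁) := by
    rw [hu', hx', hq12]
    calc q₂ * r₂ * (q₁ * r₁) = q₂ * (r₂ * q₁) * r₁ := by group
      _ = q₂ * (q₁ * r₂) * r₁ := by rw [hc q₁ hq₁ r₂ hr₂]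
      _ = _ := by group
  have e3 : n * z * n⁻¹ = (r₂ * r₁)⁻¹ * (r₁ * r₂) := by
    rw [e1, e2] at hcomm'
    calc n * z * n⁻¹ = (q₁ * q₂ * (r₂ * r₁))⁻¹ * (q₁ * q₂ * (r₂ * r₁) * (n * z * n⁻¹)) := by group
      _ = (q₁ * q₂ * (r₂ * r₁))⁻¹ * (q₁ * q₂ * (r₁ * r₂)) := by rw [← hcomm']
      _ = _ := by group
  rw [e3]
  exact R.mul_mem (R.inv_mem (R.mul_mem hr₂ hr₁)) (R.mul_mem hr₁ hr₂)

/-- the central elements of `S` of order at most two. -/
def EE (S : Subgroup G) : Subgroup G where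
  carrier := {t | t ∈ S ∧ (∀ s ∈ S, t * s = s * t) ∧ t * t = 1}
  one_mem' := ⟨S.one_mem, fun s _ => by simp, by simp⟩
  mul_mem' := by
    rintro a b ⟨ha, hac, haa⟩ ⟨hb, hbc, hbb⟩
    refine ⟨S.mul_mem ha hb, fun s hs => ?_, ?_⟩
    · calc a * b * s = a * (b * s) := by group
        _ = a * (s * b) := by rw [hbc s hs]
        _ = (a * s) * b := by group
        _ = s * a * b := by rw [hac s hs]
        _ = s * (a * b) := by group
    · calc a * b * (a * b) = a * (b * a) * b := by group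
        _ = a * (a * b) * b := by rw [hbc a ha]
        _ = (a * a) * (b * b) := by group
        _ = 1 := by rw [haa, hbb, one_mul]
  inv_mem' := by
    rintro a ⟨ha, hac, haa⟩
    have : a⁻¹ = a := inv_eq_of_mul_eq_one_left haa
    rw [this]
    exact ⟨ha, hac, haa⟩

/-- conjugation by an element of the normalizer of `S`, on `EE S`. -/
def cE (S : Subgroup G) (n : normalizer (S : Set G)) : EE S →* EE S where
  toFun t := ⟨(n : G) * t * (n : G)⁻¹, by
    obtain ⟨ht, htc, htt⟩ := t.2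
    refine ⟨(mem_normalizer_iff.mp n.2 _).mp ht, fun s hs => ?_, ?_⟩
    · have hs' : (n : G)⁻¹ * s * n ∈ S := by
        rw [mem_normalizer_iff.mp n.2 ((n : G)⁻¹ * s * n)]
        have : (n : G) * ((n : G)⁻¹ * s * n) * (n : G)⁻¹ = s := by group
        rwa [this]
      calc (n : G) * t * (n : G)⁻¹ * s = n * ((t : G) * ((n : G)⁻¹ * s * n)) * (n : G)⁻¹ := by group
        _ = n * (((n : G)⁻¹ * s * n) * (t : G)) * (n : G)⁻¹ := by rw [htc _ hs']
        _ = s * ((n : G) * t * (n : G)⁻¹) := by group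
    · calc (n : G) * t * (n : G)⁻¹ * ((n : G) * t * (n : G)⁻¹)
          = n * ((t : G) * t) * (n : G)⁻¹ := by group
        _ = 1 := by rw [htt]; group⟩
  map_one' := by
    apply Subtype.ext
    simp
  map_mul' a b := by
    apply Subtype.ext
    simp

theorem Setup.exists_isolated [Finite G] (h : Setup S Q R z u x) (hS : IsPGroup 2 S) :
    ∃ w ∈ S, w ≠ 1 ∧ w * w = 1 ∧ (∀ s ∈ S, w * s = s * w) ∧
      ∀ n ∈ normalizer (S : Set G), n * w * n⁻¹ = w := by
  classical
  obtain ⟨hQS, hRS, hc, hinf, -⟩ := h.prod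
  let _ : CommGroup (EE S) :=
    { (inferInstance : Group (EE S)) with
      mul_comm := fun a b => Subtype.ext (a.2.2.1 b b.2.1) }
  let _ : Fintype (normalizer (S : Set G)) := Fintype.ofFinite _
  let z' : EE S := ⟨z, hQS h.zQ, fun s hs => h.invol_central (hQS h.zQ) h.zz hs, h.zz⟩
  let O : Finset (EE S) := Finset.univ.image (fun n : normalizer (S : Set G) => cE S n z')
  have hzO : z' ∈ O := by
    refine Finset.mem_image.mpr ⟨1, Finset.mem_univ _, ?_⟩
    apply Subtype.ext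
    simp [cE]
  have hinj : ∀ m : normalizer (S : Set G), Function.Injective (cE S m) := by
    intro m a b hab
    have := congrArg Subtype.val hab
    apply Subtype.ext
    simpa [cE] using this
  have himg : ∀ m : normalizer (S : Set G), O.image (cE S m) = O := by
    intro m
    ext t
    simp only [O, Finset.mem_image, Finset.mem_univ, true_and]
    constructor
    · rintro ⟨_, ⟨n, rfl⟩, rfl⟩
      refine ⟨m * n, ?_⟩
      apply Subtype.ext
      simp [cE, mul_assoc]
    · rintro ⟨n, rfl⟩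
      refine ⟨_, ⟨m⁻¹ * n, rfl⟩, ?_⟩
      apply Subtype.ext
      simp [cE, mul_assoc]
  set w' : EE S := ∏ t ∈ O, t with hw'
  have hinv : ∀ m : normalizer (S : Set G), cE S m w' = w' := by
    intro m
    rw [hw', map_prod]
    conv_rhs => rw [← himg m]
    rw [Finset.prod_image (fun a _ b _ hab => hinj m hab)]
  have hsplit : z' * ∏ t ∈ O.erase z', t = w' := Finset.mul_prod_erase O (fun t => t) hzO
  have hR' : (∏ t ∈ O.erase z', t) ∈ R.subgroupOf (EE S) := by
    apply Subgroup.prod_mem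
    intro t ht
    obtain ⟨hne, htO⟩ := Finset.mem_erase.mp ht
    obtain ⟨n, -, rfl⟩ := Finset.mem_image.mp htO
    rw [mem_subgroupOf]
    rcases h.conj_z hS n.2 with h1 | h1
    · exact absurd (Subtype.ext h1) hne
    · exact h1
  rw [mem_subgroupOf] at hR'
  refine ⟨w', w'.2.1, ?_, w'.2.2.2, w'.2.2.1, ?_⟩
  · intro h1
    have h2 := congrArg Subtype.val hsplit
    rw [Subgroup.coe_mul, h1] at h2
    have h3 : z ∈ Q ⊓ R := by
      refine ⟨h.zQ, ?_⟩
      have : z = ((∏ t ∈ O.erase z', t : EE S) : G)⁻¹ := eq_inv_of_mul_eq_one_left h2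
      rw [SetLike.mem_coe, this]
      exact R.inv_mem hR'
    rw [hinf, mem_bot] at h3
    exact h.z1 h3
  · intro n hn
    exact congrArg Subtype.val (hinv ⟨n, hn⟩)

end core

section final

variable {G : Type*} [Group G] [Finite G]

/-- the statement of the `Z*`-theorem for the group `G`. -/
def ZStarStmt (G : Type*) [Group G] : Prop :=
  ∀ (P : Sylow 2 G) (u : G), orderOf u = 2 → u ∈ P →
    (∀ g : G, g * u * g⁻¹ ∈ P → g * u * g⁻¹ = u) →
    ∃ N : Subgroup G, N.Normal ∧ Odd (Nat.card N) ∧ ∀ g : G, (u * g * u⁻¹ * g⁻¹) ∈ N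

omit [Finite G] in
theorem orderOf_two_iff {t : G} : orderOf t = 2 ↔ t * t = 1 ∧ t ≠ 1 := by
  constructor
  · intro h
    constructor
    · rw [← pow_two, ← h]; exact pow_orderOf_eq_one t
    · rintro rfl
      rw [orderOf_one] at h; omega
  · rintro ⟨h1, h2⟩
    exact orderOf_eq_prime (by rw [pow_two]; exact h1) h2

theorem not_simple_of_zstar (hZ : ZStarStmt G)
    (S : Sylow 2 G) (Q R : Subgroup G) (hQR : Cfsg.IsInternalDirectProduct Q R (S : Subgroup G))
    (n : ℕ) (hn : 1 ≤ n) (eQ : ↥Q ≃* QuaternionGroup (2 ^ n))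
    (hR : ∀ r ∈ R, orderOf r = 2 → ∀ s ∈ R, r * s = s * r) :
    ¬ IsSimpleGroup G := by
  intro hsimple
  obtain ⟨m, rfl⟩ : ∃ m, n = m + 1 := ⟨n - 1, by omega⟩
  obtain ⟨α, ξ, ζ, -, -, hcomm, hζ1, hζζ⟩ := Cfsg.Agent.Lib.Helper75Quat.quat_elements m
  set f : QuaternionGroup (2 ^ (m + 1)) →* G := Q.subtype.comp eQ.symm.toMonoidHom with hf
  have hinj : Function.Injective f := (Subgroup.subtype_injective _).comp eQ.symm.injective
  have hmem : ∀ q, f q ∈ Q := fun q => (eQ.symm q).2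
  have hsurj : ∀ y ∈ Q, ∃ q, f q = y := fun y hy => ⟨eQ ⟨y, hy⟩, by simp [hf]⟩
  have hset : Setup (S : Subgroup G) Q R (f ζ) (f α) (f ξ) :=
    { prod := hQR
      zQ := hmem _
      z1 := fun h => hζ1 (hinj (by rw [h, map_one]))
      zz := by rw [← map_mul, hζζ, map_one]
      uQ := hmem _
      xQ := hmem _
      comm := by rw [← map_mul, hcomm, map_mul, map_mul]
      uniq := by
        intro y hy hyy hy1
        obtain ⟨q, rfl⟩ := hsurj y hy
        have h1 : q * q = 1 := hinj (by rw [map_mul, hyy, map_one])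
        have h2 : q ≠ 1 := fun h => hy1 (by rw [h, map_one])
        rw [quat_invol _ q h1 h2, quat_invol _ ζ hζζ hζ1]
      hR := by
        intro r hr hrr s hs
        by_cases hr1 : r = 1
        · rw [hr1]; simp
        · exact hR r hr (orderOf_two_iff.mpr ⟨hrr, hr1⟩) s hs }
  obtain ⟨w, hwS, hw1, hww, hwc, hwn⟩ := hset.exists_isolated S.isPGroup'
  have hiso : ∀ g : G, g * w * g⁻¹ ∈ S → g * w * g⁻¹ = w := by
    intro g hg
    have hsq : g * w * g⁻¹ * (g * w * g⁻¹) = 1 := by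
      calc g * w * g⁻¹ * (g * w * g⁻¹) = g * (w * w) * g⁻¹ := by group
        _ = 1 := by rw [hww]; group
    have h1 : w ∈ centralizer ((S : Subgroup G) : Set G) := by
      rw [mem_centralizer_iff]
      intro s hs
      exact (hwc s hs).symm
    have h2 : (g⁻¹)⁻¹ * w * g⁻¹ ∈ centralizer ((S : Subgroup G) : Set G) := by
      rw [inv_inv, mem_centralizer_iff]
      intro s hs
      exact (hset.invol_central hg hsq hs).symm
    obtain ⟨k, hk, hk2⟩ := S.conj_eq_normalizer_conj_of_mem_centralizer w g⁻¹ h1 h2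
    rw [inv_inv] at hk2
    rw [hk2]
    have := hwn k⁻¹ (Subgroup.inv_mem _ hk)
    rwa [inv_inv] at this
  obtain ⟨N, hN, hodd, hcen⟩ := hZ S w (orderOf_two_iff.mpr ⟨hww, hw1⟩) hwS hiso
  rcases hN.eq_bot_or_eq_top with h | h
  · -- `w` is central
    have hwZ : w ∈ center G := by
      rw [mem_center_iff]
      intro g
      have := hcen g
      rw [h, mem_bot] at this
      calc g * w = (w * g * w⁻¹ * g⁻¹)⁻¹ * (w * g) := by group
        _ = w * g := by rw [this]; simp
    have hZtop : center G = ⊤ := by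
      rcases (inferInstance : (center G).Normal).eq_bot_or_eq_top with h' | h'
      · rw [h', mem_bot] at hwZ
        exact absurd hwZ hw1
      · exact h'
    have h3 : f α * f ξ = f ξ * f α := by
      have : f α ∈ center G := by rw [hZtop]; trivial
      exact (mem_center_iff.mp this (f ξ)).symm
    have h4 := hset.comm
    rw [h3] at h4
    exact hset.z1 (by simpa using h4.symm)
  · rw [h, Subgroup.card_top] at hodd
    have h2 : 2 ∣ Nat.card G := by
      have := orderOf_dvd_natCard w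
      rwa [orderOf_two_iff.mpr ⟨hww, hw1⟩] at this
    exact (Nat.not_even_iff_odd.mpr hodd) (even_iff_two_dvd.mpr h2)

end final

end Cfsg.Agent.Lib.Helper59QR
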