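import Mathlib
import Cfsg.Agent.Lib.Helper65CSDefs
import Cfsg.Agent.Lib.Helper65CSBasic
import Cfsg.Agent.Lib.Helper65ClassGraph
import Cfsg.Agent.S4127

/-!
Project 65 (S4284), piece `xb`: in case X there is a normal `p`-complement `K` and
`M = C_G(K)` is an abelian normal subgroup of index `m`.
-/

set_option autoImplicit false

namespace Cfsg.Agent.Lib.Helper5CSXb

open Cfsg.Agent.Lib.Helper65CSDefs Cfsg.Agent.Lib.Helper65CSBasic

variable {G : Type*} [Group G] [Finite G] {m n p : ℕ}

theorem xb (h : Hyp G m n) [Fact p.Prime] (hpm : p ∣ m) (hA : XA G p m) :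
    ∃ K M : Subgroup G, XStr G p m K M := by
  have hp : p.Prime := Fact.out
  obtain ⟨a, ha⟩ := hA.pow
  obtain ⟨w, hw⟩ := hA.ex
  obtain ⟨u', hu', hu'w⟩ := exists_NP_commute h hpm hw.2
  have hidxu' : (Cen u').index = p ^ a := by rw [← ha]; exact hA.typeI u' w hu'.2 hw hu'w
  have hmax : ∀ y : G, ¬ p ^ (a + 1) ∣ (Subgroup.centralizer ({y} : Set G)).index := by
    intro y hy
    have hlt : p ^ a < p ^ (a + 1) := Nat.pow_lt_pow_right hp.one_lt (Nat.lt_succ_self a)
    rcases h.all y with h1 | h1 | h1
    · rw [show (Subgroup.centralizer ({y} : Set G)).index = 1 from h1] at hy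
      have := Nat.le_of_dvd one_pos hy
      have h2 : 1 ≤ p ^ a := Nat.one_le_pow _ _ hp.pos
      omega
    · rw [show (Subgroup.centralizer ({y} : Set G)).index = m from h1, ha] at hy
      have := Nat.le_of_dvd (pow_pos hp.pos a) hy
      omega
    · rw [show (Subgroup.centralizer ({y} : Set G)).index = m * n from h1, ha, pow_succ] at hy
      exact not_dvd_n h hp hpm (Nat.dvd_of_mul_dvd_mul_left (pow_pos hp.pos a) hy)
  obtain ⟨P, K, hKn, hKP⟩ := Cfsg.Agent.S4127.result (G := G) p a hmax ⟨u', hu'.1, hidxu'⟩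
  haveI := hKn
  have hKidx : K.index = Nat.card P := hKP.symm.index_eq_card
  have hPidx : (P : Subgroup G).index = Nat.card K := hKP.index_eq_card
  obtain ⟨k, hk⟩ := (IsPGroup.iff_card.mp P.2 : ∃ k : ℕ, Nat.card P = p ^ k)
  have hKcop : (Nat.card K).Coprime p := by
    rw [← hPidx]
    rw [Nat.coprime_comm, Nat.Prime.coprime_iff_not_dvd hp]
    exact P.not_dvd_index
  have hKcopm : (Nat.card K).Coprime m := by rw [ha]; exact Nat.Coprime.pow_right a hKcop
  -- `K` contains all the `p`-regular elements
  have hreg : ∀ x : G, IsReg p x → x ∈ K := by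
    intro x hx
    apply Cfsg.Agent.Lib.Helper65ClassGraph.mem_of_coprime_index K x
    rw [hKidx, hk]
    exact Nat.Coprime.pow_left k (Nat.coprime_comm.mp hx)
  have hKreg : ∀ x ∈ K, IsReg p x := by
    intro x hx
    have h1 : orderOf x ∣ Nat.card K := by
      have := orderOf_dvd_natCard (⟨x, hx⟩ : K)
      rwa [Subgroup.orderOf_mk] at this
    exact Nat.Coprime.coprime_dvd_left h1 hKcop
  -- an element whose index divides `m` is centralised by `K`
  have hKle : ∀ x : G, (Cen x).index ∣ m → K ≤ Cen x := by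
    intro x hx
    exact Cfsg.Agent.Lib.Helper65ClassGraph.le_of_coprime_card_index K (Cen x)
      (Nat.Coprime.coprime_dvd_right hx hKcopm)
  have hKnc : ∀ x ∈ K, x ∉ Subgroup.center G → (Cen x).index = m := by
    intro x hx hxZ
    exact hA.typeI x x hxZ ⟨hKreg x hx, hxZ⟩ (Commute.refl x)
  have hKcomm : ∀ x ∈ K, ∀ y ∈ K, Commute x y := by
    intro x hx y hy
    by_cases hxZ : x ∈ Subgroup.center G
    · exact commute_of_mem_center hxZ y
    · exact mem_Cen'.mp (hKle x (by rw [hKnc x hx hxZ]) hy)
  set M : Subgroup G := Subgroup.centralizer (K : Set G) with hM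
  have hmemM : ∀ g : G, g ∈ M ↔ ∀ x ∈ K, Commute x g := by
    intro g
    rw [hM, Subgroup.mem_centralizer_iff]
    rfl
  have hKM : K ≤ M := by
    intro x hx
    rw [hmemM]
    intro y hy
    exact hKcomm y hy x hx
  have hwK : w ∈ K := hreg w hw.1
  have hZM : Subgroup.center G ≤ M := Subgroup.center_le_centralizer _
  -- the centraliser of a noncentral element of `K` is `M`
  have hCen : ∀ k₀ ∈ K, k₀ ∉ Subgroup.center G → Cen k₀ = M := by
    intro k₀ hk₀ hk₀Z
    apply le_antisymm
    · intro g hg
      obtain ⟨x, y, hx, hy, hgxy, -, hxp, hyr⟩ := exists_split p g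
      have hxc : Commute x k₀ := mem_Cen.mp (by
        have : Subgroup.zpowers g ≤ Cen k₀ := by
          rw [Subgroup.zpowers_le]; exact hg
        exact this hx)
      have hxM : x ∈ M := by
        by_cases hxZ : x ∈ Subgroup.center G
        · exact hZM hxZ
        · have h1 := hA.typeI x k₀ hxZ ⟨hKreg k₀ hk₀, hk₀Z⟩ hxc
          rw [hmemM]
          intro z hz
          exact mem_Cen.mp (hKle x (by rw [h1]) hz)
      rw [hgxy]
      exact M.mul_mem hxM (hKM (hreg y hyr))
    · intro g hg
      exact mem_Cen'.mpr ((hmemM g).mp hg k₀ hk₀)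
  have hMidx : M.index = m := by
    rw [← hCen w hwK hw.2]
    exact hKnc w hwK hw.2
  -- `M` is abelian
  have hMle : ∀ g ∈ M, M ≤ Cen g := by
    intro g hg
    obtain ⟨x, y, hx, hy, hgxy, -, hxp, hyr⟩ := exists_split p g
    have hxM : x ∈ M := by
      have : Subgroup.zpowers g ≤ M := by
        rw [Subgroup.zpowers_le]; exact hg
      exact this hx
    have hyK : y ∈ K := hreg y hyr
    have h1 : M ≤ Cen y := by
      intro z hz
      exact mem_Cen'.mpr ((hmemM z).mp hz y hyK)
    have h2 : M ≤ Cen x := by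
      by_cases hxZ : x ∈ Subgroup.center G
      · intro z _
        exact mem_Cen'.mpr (commute_of_mem_center hxZ z)
      · have hxw : Commute x w := ((hmemM x).mp hxM w hwK).symm
        have hcen : Cen (x * w) = Cen x ⊓ Cen w :=
          Cen_mul_of_coprime hxw (IsP.coprime hxp hw.1)
        have heZ : x * w ∉ Subgroup.center G := by
          intro he
          apply hxZ
          rw [← index_eq_one_iff] at he ⊢
          rw [Subgroup.index_eq_one] at he ⊢
          rw [hcen] at he
          exact eq_top_iff.mpr (he ▸ inf_le_left)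
        have hew : Commute (x * w) w := hxw.mul_left (Commute.refl w)
        have hidx := hA.typeI (x * w) w heZ hw hew
        have hle : Cen (x * w) ≤ M := by
          rw [hcen, hCen w hwK hw.2]; exact inf_le_right
        have heq := eq_of_le_of_index_eq hle (by rw [hidx, hMidx])
        rw [← heq, hcen]
        exact inf_le_left
    intro z hz
    rw [hgxy]
    exact mem_Cen.mpr ((mem_Cen.mp (h2 hz)).mul_right (mem_Cen.mp (h1 hz)))
  refine ⟨K, M, ⟨hKn, hKcop, ⟨k, by rw [hKidx, hk]⟩, inferInstance, hKM, ?_, hMidx, ?_, ?_, ?_⟩⟩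
  · intro x hx y hy
    exact mem_Cen'.mp (hMle x hx hy)
  · intro x
    constructor
    · intro hx
      apply index_of_dvd h
      rw [← hMidx]
      exact Subgroup.index_dvd_of_le (hMle x hx)
    · intro hx
      have hxm : (Cen x).index ∣ m := by
        rcases hx with h1 | h1 <;> rw [h1]
        exact one_dvd m
      obtain ⟨y, z, hy, hz, hxyz, -, hyp, hzr⟩ := exists_split p x
      have h1 : (Cen y).index ∣ m :=
        (Subgroup.index_dvd_of_le (Cen_le_of_mem_zpowers hy)).trans hxm
      have hyM : y ∈ M := by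
        rw [hmemM]
        intro t ht
        exact mem_Cen.mp (hKle y h1 ht)
      rw [hxyz]
      exact M.mul_mem hyM (hKM (hreg z hzr))
  · intro g hg x hx hgx
    by_contra hxZ
    apply hg
    rw [← hCen x hx hxZ]
    exact mem_Cen.mpr hgx
  · intro hle
    exact hw.2 (hle hwK)

end Cfsg.Agent.Lib.Helper5CSXb
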