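import Mathlib
import Cfsg.Prelude.Def_Blocks
import Cfsg.Agent.Lib.Helper59BLFin
import Cfsg.Agent.Lib.Helper81ClassMul
import Cfsg.Agent.Lib.Helper21Simple
import Cfsg.Agent.Lib.Helper82Cod
import Cfsg.Agent.Lib.Helper32Virt
import Cfsg.Agent.S1491
import Cfsg.Agent.Lib.Helper83Char

set_option autoImplicit false
set_option linter.unusedSectionVars false

/-! Degree equation for the principal block of a group whose Sylow `p`-subgroup has order `p`,
extracted from the Brauer--Leonard analysis of helper59. -/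

namespace Cfsg.Agent.Lib.Helper5Exc

open Cfsg Subgroup
open Cfsg.Agent.Lib.Helper81Base Cfsg.Agent.Lib.Helper81BB Cfsg.Agent.Lib.Helper82Linear
  Cfsg.Agent.Lib.Helper59BLDual
  Cfsg.Agent.Lib.Helper59BLGram Cfsg.Agent.Lib.Helper59BLTw Cfsg.Agent.Lib.Helper59BLStruct
  Cfsg.Agent.Lib.Helper59BLSec Cfsg.Agent.Lib.Helper59BLFin
open scoped ComplexConjugate

variable {G : Type*} [Group G] [Fintype G] {p : ℕ} [Fact p.Prime]

theorem bl_of_prime {M : Ideal AlgInt} (hM : IsPModular p M) (P : Sylow p G)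
    (hP : Nat.card (P : Subgroup G) = p) : BL p M P := by
  have hcyc : IsCyclic (P : Subgroup G) := isCyclic_of_prime_card hP
  refine ⟨hM, ?_, ?_⟩
  · exact hcyc.isMulCommutative
  · intro y hy hy1
    apply le_antisymm
    · intro g hg
      have hg1 : g ∈ centralizer ({y} : Set G) := (Subgroup.mem_inf.mp hg).1
      rw [mem_centralizer_iff]
      intro x hx
      have hmem : (⟨x, hx⟩ : (P : Subgroup G)) ∈ zpowers (⟨y, hy⟩ : (P : Subgroup G)) :=
        mem_zpowers_of_prime_card hP (fun h => hy1 (congrArg Subtype.val h))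
      obtain ⟨k, hk⟩ := hmem
      have hk' : y ^ k = x := by
        have := congrArg Subtype.val hk
        simpa using this
      rw [mem_centralizer_singleton_iff] at hg1
      have hc : Commute g y := hg1
      rw [← hk']
      exact (hc.zpow_right k).eq.symm
    · exact le_inf (centralizer_le (Set.singleton_subset_iff.mpr hy)) centralizer_le_normalizer'

/-- the sum of an irreducible character over a Sylow subgroup is a multiple of its order. -/
theorem sum_res (P : Sylow p G) [Fintype ↥(P : Subgroup G)] (χ : IrrCharacter G) :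
    ∃ k : ℕ, ∑ y : ↥(P : Subgroup G), (χ : G → ℂ) y = (Nat.card ↥(P : Subgroup G) : ℂ) * k := by
  let _ : Fintype (normalizer ((P : Subgroup G) : Set G)) := Fintype.ofFinite _
  obtain ⟨k, hk⟩ := exists_nat_mu (P := P) χ 1
  refine ⟨k, ?_⟩
  rw [← hk]
  unfold mu classInner
  have h0 : (Nat.card ↥(P : Subgroup G) : ℂ) ≠ 0 := by
    exact_mod_cast Nat.card_pos.ne'
  rw [← mul_assoc, mul_inv_cancel₀ h0, one_mul]
  apply Finset.sum_congr rfl
  intro y _
  simp

theorem sum_split_one {H : Type*} [Group H] [Fintype H] [DecidableEq H] (F : H → ℂ) :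
    ∑ y : H, F y = F 1 + ∑ y : H, (if y ≠ 1 then F y else 0) := by
  rw [← Finset.add_sum_erase Finset.univ F (Finset.mem_univ 1)]
  congr 1
  rw [← Finset.sum_filter]
  apply Finset.sum_congr _ (fun _ _ => rfl)
  ext y
  simp

theorem charDegree_castC (χ : IrrCharacter G) :
    ((charDegree (χ : G → ℂ) : ℕ) : ℂ) = (χ : G → ℂ) 1 :=
  Cfsg.Agent.Lib.Helper83Char.charDegree_cast χ.2

open scoped Classical in
theorem exists_deg_data (P : Sylow p G) (hP : Nat.card (P : Subgroup G) = p) (m : ℕ)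
    (hm : (centralizer ((P : Subgroup G) : Set G)).relIndex
      (normalizer ((P : Subgroup G) : Set G)) = m) (hm2 : m + 1 < p) :
    ∃ (δ d : ℤ) (A : IrrCharacter G → ℤ) (Y : Finset (IrrCharacter G)) (f : ℕ),
      (δ = 1 ∨ δ = -1) ∧ A (irrOne G) = 1 ∧ irrOne G ∉ Y ∧ Y.card * m + 1 = p ∧
      (∀ χ ∈ Y, A χ = d ∧ charDegree (χ : G → ℂ) = f) ∧
      ((f : ℤ) ≡ d + δ * m [ZMOD p]) ∧ ∑ χ, A χ ^ 2 = m + 2 * δ * d ∧
      (∀ χ, χ ∉ Y → A χ ≠ 0 → (charDegree (χ : G → ℂ) : ℤ) ≡ A χ [ZMOD p]) ∧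
      ∑ χ, A χ * (charDegree (χ : G → ℂ) : ℤ) = δ * f := by
  obtain ⟨M, hM⟩ := Cfsg.Agent.Lib.Helper81ClassMul.exists_modular (Fact.out : p.Prime)
  let _ : Fintype ↥(P : Subgroup G) := Fintype.ofFinite _
  let _ : Fintype (normalizer ((P : Subgroup G) : Set G)) := Fintype.ofFinite _
  have h : BL p M P := bl_of_prime hM P hP
  have := finite_hom ↥(P : Subgroup G) h.hab
  let _ : Fintype (↥(P : Subgroup G) →* ℂˣ) := Fintype.ofFinite _
  obtain ⟨δ, d, ζ, A, D⟩ := exists_data h m hm (by rw [hP]; exact hm2)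
  have hp1 : 1 < Nat.card ↥(P : Subgroup G) := by rw [hP]; exact (Fact.out : p.Prime).one_lt
  obtain ⟨ψ₀, hψ₀⟩ := exists_ne_one h hp1
  have hreg1 : ¬ p ∣ orderOf (1 : G) := by
    rw [orderOf_one]; exact (Fact.out : p.Prime).one_lt.ne' ∘ Nat.dvd_one.mp
  have hcardP : ∑ y : ↥(P : Subgroup G), (if y ≠ 1 then (1 : ℂ) else 0) = (p : ℂ) - 1 := by
    have := sum_split_one (H := ↥(P : Subgroup G)) (fun _ => (1 : ℂ))
    simp only [Finset.sum_const, Finset.card_univ, nsmul_eq_mul, mul_one] at this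
    rw [← Nat.card_eq_fintype_card, hP] at this
    linear_combination -this
  refine ⟨δ, d, A, (Yset ζ).toFinset, charDegree (ζ ψ₀ : G → ℂ), D.hδ, D.hAone, ?_, ?_, ?_, ?_,
    D.hnorm, ?_, ?_⟩
  · rw [Set.mem_toFinset]
    exact (one_mem_X h D).2
  · rw [Set.toFinset_card, ← Nat.card_eq_fintype_card, card_Y h D hm, hP]
  · intro χ hχ
    rw [Set.mem_toFinset] at hχ
    refine ⟨A_of_mem_Y D hχ, ?_⟩
    unfold charDegree
    rw [Y_agree D hχ ⟨ψ₀, hψ₀, rfl⟩ 1 hreg1]
  · obtain ⟨k, hk⟩ := sum_res P (ζ ψ₀)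
    rw [sum_split_one, hP] at hk
    have e1 : ∑ y : ↥(P : Subgroup G), (if y ≠ 1 then (ζ ψ₀ : G → ℂ) y else 0)
        = (d : ℂ) * ((p : ℂ) - 1) - (δ : ℂ) * m := by
      have e2 : ∀ y : ↥(P : Subgroup G), (if y ≠ 1 then (ζ ψ₀ : G → ℂ) y else 0)
          = (d : ℂ) * (if y ≠ 1 then (1 : ℂ) else 0) + (δ : ℂ) *
            ∑ ψ' : ↥(P : Subgroup G) →* ℂˣ, (if Rel P ψ₀ ψ' then
              (if y ≠ 1 then ((ψ' y : ℂˣ) : ℂ) else 0) else 0) := by
        intro y
        by_cases hy : y = 1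
        · simp [hy]
        · simp only [ne_eq, hy, not_false_eq_true, if_true, mul_one]
          exact Y_val D ψ₀ hψ₀ y hy
      rw [Finset.sum_congr rfl (fun y _ => e2 y), Finset.sum_add_distrib, ← Finset.mul_sum,
        ← Finset.mul_sum, hcardP, Finset.sum_comm]
      have e3 : ∀ ψ' : ↥(P : Subgroup G) →* ℂˣ, (∑ y : ↥(P : Subgroup G), (if Rel P ψ₀ ψ' then
              (if y ≠ 1 then ((ψ' y : ℂˣ) : ℂ) else 0) else 0)) = if Rel P ψ₀ ψ' then -1 else 0 := by
        intro ψ'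
        by_cases hr : Rel P ψ₀ ψ'
        · simp only [if_pos hr]
          have h1 := sum_hom_eq_zero ψ' (ne_one_of_rel P hr hψ₀)
          rw [sum_split_one] at h1
          simp only [map_one, Units.val_one] at h1
          linear_combination h1
        · simp [if_neg hr]
      rw [Finset.sum_congr rfl (fun y _ => e3 y)]
      have e4 : (∑ ψ' : ↥(P : Subgroup G) →* ℂˣ, (if Rel P ψ₀ ψ' then (-1 : ℂ) else 0))
          = -(m : ℂ) := by
        rw [← Finset.sum_filter, Finset.sum_const, ← card_orbit h m hm ψ₀ hψ₀,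
          Nat.card_eq_fintype_card, Fintype.card_subtype]
        simp
      rw [e4]; ring
    rw [e1] at hk
    have hk2 : ((charDegree (ζ ψ₀ : G → ℂ) : ℤ) : ℂ) = ((d + δ * m + p * (k - d) : ℤ) : ℂ) := by
      push_cast
      rw [charDegree_castC]
      simp only [OneMemClass.coe_one] at hk
      linear_combination hk
    have hk3 : (charDegree (ζ ψ₀ : G → ℂ) : ℤ) = d + δ * m + p * (k - d) := by exact_mod_cast hk2
    rw [hk3]
    exact Int.modEq_iff_dvd.mpr ⟨-(k - d), by ring⟩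
  · intro χ hχY hχA
    rw [Set.mem_toFinset] at hχY
    have hχB : χ ∈ principalBlock M G := by
      by_contra hcon
      exact hχA (D.hout χ hcon)
    have hχX : χ ∈ Xset M ζ := ⟨hχB, hχY⟩
    obtain ⟨k, hk⟩ := sum_res P χ
    rw [sum_split_one, hP] at hk
    have e1 : ∑ y : ↥(P : Subgroup G), (if y ≠ 1 then (χ : G → ℂ) y else 0)
        = (A χ : ℂ) * ((p : ℂ) - 1) := by
      rw [← hcardP, Finset.mul_sum]
      apply Finset.sum_congr rfl
      intro y _
      by_cases hy : y = 1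
      · simp [hy]
      · simp only [ne_eq, hy, not_false_eq_true, if_true, mul_one]
        exact X_val D hχX y hy
    rw [e1] at hk
    have hk2 : ((charDegree (χ : G → ℂ) : ℤ) : ℂ) = ((A χ + p * (k - A χ) : ℤ) : ℂ) := by
      push_cast
      rw [charDegree_castC]
      simp only [OneMemClass.coe_one] at hk
      linear_combination hk
    have hk3 : (charDegree (χ : G → ℂ) : ℤ) = A χ + p * (k - A χ) := by exact_mod_cast hk2
    rw [hk3]
    exact Int.modEq_iff_dvd.mpr ⟨-(k - A χ), by ring⟩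
  · have h1 := D.hreg ψ₀ hψ₀ 1 hreg1
    have h2 : ((∑ χ, A χ * (charDegree (χ : G → ℂ) : ℤ) : ℤ) : ℂ)
        = ((δ * (charDegree (ζ ψ₀ : G → ℂ) : ℕ) : ℤ) : ℂ) := by
      push_cast
      rw [charDegree_castC, ← h1]
      apply Finset.sum_congr rfl
      intro χ _
      rw [charDegree_castC]
    exact_mod_cast h2

theorem charDegree_dvd (χ : IrrCharacter G) : charDegree (χ : G → ℂ) ∣ Nat.card G :=
  Cfsg.Agent.S1491.degree_dvd_card χ.2 _ (charDegree_castC χ).symm

/-- the case where the number of exceptional characters is large: `d = 0`. -/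
theorem exists_deg_data0 (P : Sylow p G) (hP : Nat.card (P : Subgroup G) = p) (m : ℕ)
    (hm : (centralizer ((P : Subgroup G) : Set G)).relIndex
      (normalizer ((P : Subgroup G) : Set G)) = m) (hm2 : m * (m + 1) + 1 < p) :
    ∃ (δ : ℤ) (A : IrrCharacter G → ℤ) (f : ℕ),
      (δ = 1 ∨ δ = -1) ∧ A (irrOne G) = 1 ∧ f ∣ Nat.card G ∧
      ((f : ℤ) ≡ δ * m [ZMOD p]) ∧ ∑ χ, A χ ^ 2 = m ∧
      (∀ χ, A χ ≠ 0 → (charDegree (χ : G → ℂ) : ℤ) ≡ A χ [ZMOD p]) ∧
      ∑ χ, A χ * (charDegree (χ : G → ℂ) : ℤ) = δ * f := by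
  classical
  obtain ⟨δ, d, A, Y, f, hδ, hA1, h1Y, hYc, hY, hf, hn, hX, hsum⟩ :=
    exists_deg_data P hP m hm (by nlinarith)
  have hYm : m + 2 ≤ Y.card := by
    by_contra hcon
    have h1 : Y.card ≤ m + 1 := by omega
    have h2 : Y.card * m ≤ (m + 1) * m := Nat.mul_le_mul_right m h1
    nlinarith
  have h1 : ∑ χ ∈ insert (irrOne G) Y, A χ ^ 2 ≤ ∑ χ, A χ ^ 2 :=
    Finset.sum_le_sum_of_subset_of_nonneg (Finset.subset_univ _) (fun _ _ _ => sq_nonneg _)
  rw [Finset.sum_insert h1Y, hA1, Finset.sum_congr rfl (fun χ hχ => by rw [(hY χ hχ).1]),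
    Finset.sum_const, hn, nsmul_eq_mul] at h1
  have hd : d = 0 := by
    by_contra hd0
    have hd2 : 1 ≤ d ^ 2 := by
      have : 0 < d ^ 2 := by positivity
      omega
    have hδd : δ * d ≤ d ^ 2 := by
      rcases hδ with h | h <;> rw [h] <;> nlinarith
    have hYm' : (m : ℤ) + 2 ≤ (Y.card : ℤ) := by exact_mod_cast hYm
    nlinarith
  subst hd
  obtain ⟨χ₀, hχ₀⟩ : Y.Nonempty := Finset.card_pos.mp (by omega)
  refine ⟨δ, A, f, hδ, hA1, ?_, by simpa using hf, by simpa using hn, ?_, hsum⟩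
  · rw [← (hY χ₀ hχ₀).2]
    exact charDegree_dvd χ₀
  · intro χ hχ
    exact hX χ (fun hmem => hχ (hY χ hmem).1) hχ

/-- a non-principal irreducible character of a non-abelian simple group is not linear. -/
theorem charDegree_ne_one [IsSimpleGroup G] (hG : ¬ IsMulCommutative G) (χ : IrrCharacter G)
    (hχ : χ ≠ irrOne G) : charDegree (χ : G → ℂ) ≠ 1 := by
  intro h1
  have h2 : (χ : G → ℂ) 1 = 1 := by rw [← charDegree_castC, h1]; simp
  rcases (homOfLinear χ h2).normal_ker.eq_bot_or_eq_top with h | h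
  · apply hG
    have hinj : Function.Injective (homOfLinear χ h2) := (MonoidHom.ker_eq_bot_iff _).mp h
    exact ⟨⟨fun a b => hinj (by rw [map_mul, map_mul, mul_comm])⟩⟩
  · apply hχ
    apply Subtype.ext
    funext g
    have : g ∈ (homOfLinear χ h2).ker := by rw [h]; exact mem_top g
    rw [MonoidHom.mem_ker] at this
    rw [← homOfLinear_apply χ h2, this]
    rfl

/-- the degree equation for `m = 2`. -/
theorem deg_eq_two [IsSimpleGroup G] (hG : ¬ IsMulCommutative G) (P : Sylow p G)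
    (hP : Nat.card (P : Subgroup G) = p)
    (hm : (centralizer ((P : Subgroup G) : Set G)).relIndex
      (normalizer ((P : Subgroup G) : Set G)) = 2) (hm2 : 7 < p) :
    ∃ (x f : ℕ) (s δ : ℤ), (s = 1 ∨ s = -1) ∧ (δ = 1 ∨ δ = -1) ∧ x ∣ Nat.card G ∧
      f ∣ Nat.card G ∧ x ≠ 1 ∧ ((x : ℤ) ≡ s [ZMOD p]) ∧ ((f : ℤ) ≡ δ * 2 [ZMOD p]) ∧
      1 + s * x = δ * f := by
  classical
  obtain ⟨δ, A, f, hδ, hA1, hfd, hf, hn, hX, hsum⟩ := exists_deg_data0 P hP 2 hm (by omega)
  set B : IrrCharacter G → ℤ := fun χ => if χ = irrOne G then 0 else A χ with hB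
  have hsplit : ∀ F : IrrCharacter G → ℤ, ∑ χ, F χ = F (irrOne G)
      + ∑ χ, (if χ = irrOne G then 0 else F χ) := by
    intro F
    rw [← Finset.add_sum_erase Finset.univ F (Finset.mem_univ (irrOne G))]
    congr 1
    rw [← Finset.add_sum_erase Finset.univ (fun χ => if χ = irrOne G then 0 else F χ)
      (Finset.mem_univ (irrOne G)), if_pos rfl, zero_add]
    apply Finset.sum_congr rfl
    intro χ hχ
    rw [if_neg (Finset.ne_of_mem_erase hχ)]
  have hB2 : ∑ χ, B χ * B χ = 1 := by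
    rw [hsplit, hA1] at hn
    have : ∑ χ, B χ * B χ = ∑ χ, (if χ = irrOne G then 0 else A χ ^ 2) := by
      apply Finset.sum_congr rfl
      intro χ _
      simp only [hB]
      split_ifs <;> ring
    rw [this]
    push_cast at hn
    linarith
  obtain ⟨χ₁, hs, hz⟩ := Cfsg.Agent.Lib.Helper32Virt.int_sq_sum_one B hB2
  have hχ₁ : χ₁ ≠ irrOne G := by
    intro h
    simp only [hB, h, if_true] at hs
    omega
  have hBA : B χ₁ = A χ₁ := by simp only [hB, if_neg hχ₁]
  have hdeg1 : charDegree ((irrOne G : IrrCharacter G) : G → ℂ) = 1 := by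
    have : ((charDegree ((irrOne G : IrrCharacter G) : G → ℂ) : ℕ) : ℂ) = 1 := by
      rw [charDegree_castC]; rfl
    exact_mod_cast this
  refine ⟨charDegree (χ₁ : G → ℂ), f, A χ₁, δ, hBA ▸ hs, hδ, charDegree_dvd χ₁, hfd,
    charDegree_ne_one hG χ₁ hχ₁, hX χ₁ (by rw [← hBA]; rcases hs with h | h <;> rw [h] <;> simp),
    by simpa using hf, ?_⟩
  rw [← hsum, hsplit, hA1, hdeg1]
  congr 1
  rw [Finset.sum_eq_single χ₁]
  · rw [if_neg hχ₁]
  · intro χ _ hne
    split_ifs with h1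
    · rfl
    · have := hz χ hne
      simp only [hB, if_neg h1] at this
      rw [this, zero_mul]
  · intro h; exact absurd (Finset.mem_univ _) h

/-- the degree equation for `m = 3`. -/
theorem deg_eq_three [IsSimpleGroup G] (hG : ¬ IsMulCommutative G) (P : Sylow p G)
    (hP : Nat.card (P : Subgroup G) = p)
    (hm : (centralizer ((P : Subgroup G) : Set G)).relIndex
      (normalizer ((P : Subgroup G) : Set G)) = 3) (hm2 : 13 < p) :
    ∃ (x y f : ℕ) (s t δ : ℤ), (s = 1 ∨ s = -1) ∧ (t = 1 ∨ t = -1) ∧ (δ = 1 ∨ δ = -1) ∧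
      x ∣ Nat.card G ∧ y ∣ Nat.card G ∧
      f ∣ Nat.card G ∧ x ≠ 1 ∧ y ≠ 1 ∧ ((x : ℤ) ≡ s [ZMOD p]) ∧ ((y : ℤ) ≡ t [ZMOD p]) ∧
      ((f : ℤ) ≡ δ * 3 [ZMOD p]) ∧ 1 + s * x + t * y = δ * f := by
  classical
  obtain ⟨δ, A, f, hδ, hA1, hfd, hf, hn, hX, hsum⟩ := exists_deg_data0 P hP 3 hm (by omega)
  set B : IrrCharacter G → ℤ := fun χ => if χ = irrOne G then 0 else A χ with hB
  have hsplit : ∀ F : IrrCharacter G → ℤ, ∑ χ, F χ = F (irrOne G)
      + ∑ χ, (if χ = irrOne G then 0 else F χ) := by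
    intro F
    rw [← Finset.add_sum_erase Finset.univ F (Finset.mem_univ (irrOne G))]
    congr 1
    rw [← Finset.add_sum_erase Finset.univ (fun χ => if χ = irrOne G then 0 else F χ)
      (Finset.mem_univ (irrOne G)), if_pos rfl, zero_add]
    apply Finset.sum_congr rfl
    intro χ hχ
    rw [if_neg (Finset.ne_of_mem_erase hχ)]
  have hB2 : ∑ χ, B χ * B χ = 2 := by
    rw [hsplit, hA1] at hn
    have : ∑ χ, B χ * B χ = ∑ χ, (if χ = irrOne G then 0 else A χ ^ 2) := by
      apply Finset.sum_congr rfl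
      intro χ _
      simp only [hB]
      split_ifs <;> ring
    rw [this]
    push_cast at hn
    linarith
  obtain ⟨χ₁, χ₂, h12, hs, ht, hz⟩ := Cfsg.Agent.Lib.Helper32Virt.int_sq_sum_two B hB2
  have hχ₁ : χ₁ ≠ irrOne G := by
    intro h
    simp only [hB, h, if_true] at hs
    omega
  have hχ₂ : χ₂ ≠ irrOne G := by
    intro h
    simp only [hB, h, if_true] at ht
    omega
  have hBA : B χ₁ = A χ₁ := by simp only [hB, if_neg hχ₁]
  have hBA2 : B χ₂ = A χ₂ := by simp only [hB, if_neg hχ₂]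
  have hdeg1 : charDegree ((irrOne G : IrrCharacter G) : G → ℂ) = 1 := by
    have : ((charDegree ((irrOne G : IrrCharacter G) : G → ℂ) : ℕ) : ℂ) = 1 := by
      rw [charDegree_castC]; rfl
    exact_mod_cast this
  refine ⟨charDegree (χ₁ : G → ℂ), charDegree (χ₂ : G → ℂ), f, A χ₁, A χ₂, δ, hBA ▸ hs,
    hBA2 ▸ ht, hδ, charDegree_dvd χ₁, charDegree_dvd χ₂, hfd,
    charDegree_ne_one hG χ₁ hχ₁, charDegree_ne_one hG χ₂ hχ₂,
    hX χ₁ (by rw [← hBA]; rcases hs with h | h <;> rw [h] <;> simp),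
    hX χ₂ (by rw [← hBA2]; rcases ht with h | h <;> rw [h] <;> simp),
    by simpa using hf, ?_⟩
  rw [← hsum, hsplit, hA1, hdeg1, add_assoc]
  congr 1
  rw [← Finset.sum_subset (Finset.subset_univ {χ₁, χ₂}), Finset.sum_pair h12, if_neg hχ₁,
    if_neg hχ₂]
  intro χ _ hne
  simp only [Finset.mem_insert, Finset.mem_singleton, not_or] at hne
  split_ifs with h1
  · rfl
  · have := hz χ hne.1 hne.2
    simp only [hB, if_neg h1] at this
    rw [this, zero_mul]

open Cfsg.Agent.Lib.Helper21Simple in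
/-- Sylow bookkeeping for a prime dividing the order of a simple group exactly once. -/
theorem sylow_setup {G : Type*} [Group G] [Finite G] [IsSimpleGroup G] {p : ℕ} [Fact p.Prime]
    (hG : ¬ IsMulCommutative G) (g' : ℕ) (hcard : Nat.card G = p * g') (hg' : ¬ p ∣ g')
    (P : Sylow p G) :
    Nat.card (P : Subgroup G) = p ∧ ∃ n m : ℕ, n % p = 1 ∧ n ≠ 1 ∧ m ≠ 1 ∧ m ∣ p - 1 ∧
      m * n ∣ g' ∧ Nat.card (Sylow p G) = n ∧
      (centralizer ((P : Subgroup G) : Set G)).relIndex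
        (normalizer ((P : Subgroup G) : Set G)) = m := by
  have hp : p.Prime := Fact.out
  obtain ⟨hP, hidx⟩ := sylow_card_index (p := p) (a := 1) (m := g') (by rw [hcard, pow_one]) hg' P
  rw [pow_one] at hP
  have h1 : Nat.card (Sylow p G) ≡ 1 [MOD p] := card_sylow_modEq_one p G
  have h3 : Nat.card (Sylow p G) ≠ 1 := card_sylow_ne_one hG (by rw [hcard]; exact dvd_mul_right _ _)
  have h4 := card_normalizer_mul_card_sylow P
  have hcyc : IsCyclic (P : Subgroup G) := isCyclic_of_prime_card hP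
  have h7 := relIndex_dvd_card_mulAut (P : Subgroup G)
  rw [hcyc.card_mulAut, hP, Nat.totient_prime hp] at h7
  refine ⟨hP, _, _, ?_, h3, ?_, h7, ?_, rfl, rfl⟩
  · have := h1
    unfold Nat.ModEq at this
    rw [this, Nat.mod_eq_of_lt hp.one_lt]
  · intro h9
    rw [Subgroup.relIndex_eq_one] at h9
    exact not_normalizer_le_centralizer hG P (by rw [hcard]; exact dvd_mul_right _ _) h9
  · have h8 : (centralizer ((P : Subgroup G) : Set G)).relIndex
        (normalizer ((P : Subgroup G) : Set G)) ∣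
        Nat.card (normalizer ((P : Subgroup G) : Set G)) := Subgroup.relIndex_dvd_card _ _
    have h9 : (centralizer ((P : Subgroup G) : Set G)).relIndex
        (normalizer ((P : Subgroup G) : Set G)) * Nat.card (Sylow p G) ∣ p * g' := by
      rw [← hcard, ← h4]
      exact Nat.mul_dvd_mul_right h8 _
    have hc1 : Nat.Coprime ((centralizer ((P : Subgroup G) : Set G)).relIndex
        (normalizer ((P : Subgroup G) : Set G))) p := by
      apply Nat.Coprime.symm
      rw [Nat.Prime.coprime_iff_not_dvd hp]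
      intro hd
      have := Nat.le_of_dvd (by have := hp.two_le; omega) (hd.trans h7)
      have := hp.two_le
      omega
    have hc2 : Nat.Coprime (Nat.card (Sylow p G)) p := by
      apply Nat.Coprime.symm
      rw [Nat.Prime.coprime_iff_not_dvd hp]
      intro hd
      have h10 := (Nat.modEq_zero_iff_dvd.mpr hd).symm.trans h1
      unfold Nat.ModEq at h10
      rw [Nat.zero_mod, Nat.mod_eq_of_lt hp.one_lt] at h10
      omega
    exact (Nat.Coprime.mul_left hc1 hc2).dvd_of_dvd_mul_left h9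

end Cfsg.Agent.Lib.Helper5Exc
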