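import Cfsg.Agent.Lib.Helper60TW

set_option autoImplicit false
set_option linter.unusedSectionVars false

/-! Index bounds for the first and second cores (Wielandt's bound toward the Sims conjecture). -/

namespace Cfsg.Agent.Lib.Helper60TWIdx

open Subgroup Nat
open Cfsg.Agent.Lib.Helper28Comp (NormIn Sn CompIn)
open Cfsg.Agent.Lib.Helper60TW
open Cfsg.Agent.Lib

universe u

theorem index_normalCore_dvd {X : Type*} [Group X] [Finite X] (K : Subgroup X) :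
    K.normalCore.index ∣ (K.index)! := by
  classical
  rw [Subgroup.normalCore_eq_ker, Subgroup.index_ker]
  have h1 := Subgroup.card_subgroup_dvd_card (MulAction.toPermHom X (X ⧸ K)).range
  rwa [Nat.card_perm] at h1

theorem relIndex_normalCore_dvd {X : Type*} [Group X] [Finite X] (K : Subgroup X) :
    K.normalCore.relIndex K ∣ (K.index - 1)! := by
  have h1 := index_normalCore_dvd K
  rw [← Subgroup.relIndex_mul_index K.normalCore_le] at h1
  obtain ⟨n, hn⟩ : ∃ n, K.index = n + 1 := Nat.exists_eq_succ_of_ne_zero K.index_ne_zero_of_finite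
  rw [hn, Nat.factorial_succ, mul_comm] at h1
  rw [hn, Nat.add_sub_cancel]
  exact Nat.dvd_of_mul_dvd_mul_left (Nat.succ_pos n) h1

variable {G : Type u} [Group G]

theorem IsCor.subgroupOf_eq {M Y C : Subgroup G} (h : IsCor M Y C) :
    C.subgroupOf M = (Y.subgroupOf M).normalCore := by
  ext ⟨x, hx⟩
  rw [mem_subgroupOf]
  constructor
  · intro hC b
    exact ((h x).mp hC).2 b b.2
  · intro hC
    exact (h x).mpr ⟨hx, fun m hm => hC ⟨m, hm⟩⟩

theorem relIndex_cor_dvd [Finite G] {M Y C : Subgroup G} (h : IsCor M Y C) :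
    C.relIndex M ∣ (Y.relIndex M)! := by
  unfold relIndex
  rw [IsCor.subgroupOf_eq h]
  exact index_normalCore_dvd _

theorem relIndex_cor_inf_dvd [Finite G] {M Y C : Subgroup G} (h : IsCor M Y C) :
    C.relIndex (Y ⊓ M) ∣ (Y.relIndex M - 1)! := by
  have h1 := relIndex_normalCore_dvd (Y.subgroupOf M)
  rw [← IsCor.subgroupOf_eq h, ← inf_subgroupOf_right Y M, relIndex_subgroupOf inf_le_right,
    inf_subgroupOf_right] at h1
  exact h1

variable {M₁ M₂ A₁ B₁ A₂ : Subgroup G}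

theorem relIndex_a2_a1_dvd [Finite G] (a1 : IsCor M₁ M₂ A₁) (b1 : IsCor M₂ M₁ B₁)
    (a2 : IsCor M₁ B₁ A₂) :
    A₂.relIndex A₁ ∣ (B₁.relIndex (M₁ ⊓ M₂)) ^ (M₂.relIndex M₁) := by
  classical
  have hB1 : NormIn B₁ (M₁ ⊓ M₂) :=
    ⟨le_inf b1.le_right b1.le_left, inf_le_right.trans b1.normIn.2⟩
  have hBn : (B₁.subgroupOf (M₁ ⊓ M₂)).Normal := (Helper28Comp.normIn_iff_subgroupOf hB1.1).mp hB1
  let ψ : M₁ → (A₁ →* (M₁ ⊓ M₂ : Subgroup G)) := fun m =>
    MonoidHom.mk' (fun x => ⟨(m : G)⁻¹ * x * m, by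
      have := conj_mem_of_normIn' a1.normIn m.2 x.2
      exact ⟨a1.le_left this, a1.le_right this⟩⟩) (by
      intro x y
      apply Subtype.ext
      simp [mul_assoc])
  let Φ : A₁ →* ((M₁ ⧸ M₂.subgroupOf M₁) → (M₁ ⊓ M₂ : Subgroup G) ⧸ B₁.subgroupOf (M₁ ⊓ M₂)) :=
    MonoidHom.pi (fun c => (QuotientGroup.mk' _).comp (ψ c.out))
  have hker : Φ.ker = A₂.subgroupOf A₁ := by
    ext ⟨x, hx⟩
    rw [MonoidHom.mem_ker, mem_subgroupOf]
    have e : Φ ⟨x, hx⟩ = 1 ↔ ∀ c : M₁ ⧸ M₂.subgroupOf M₁, ((c.out : M₁) : G)⁻¹ * x * (c.out : M₁) ∈ B₁ := by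
      rw [funext_iff]
      apply forall_congr'
      intro c
      show (QuotientGroup.mk' _) (ψ c.out ⟨x, hx⟩) = 1 ↔ _
      rw [QuotientGroup.mk'_apply, QuotientGroup.eq_one_iff, mem_subgroupOf]
      rfl
    rw [e]
    constructor
    · intro hc
      refine (a2 x).mpr ⟨a1.le_left hx, fun m hm => ?_⟩
      obtain ⟨k, hk⟩ := QuotientGroup.mk_out_eq_mul (M₂.subgroupOf M₁) (⟨m, hm⟩⁻¹ : M₁)
      have h1 := hc (QuotientGroup.mk (⟨m, hm⟩⁻¹ : M₁))
      rw [hk] at h1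
      have hkM : ((k : M₁) : G) ∈ M₂ := k.2
      have h2 := conj_mem_of_normIn b1.normIn hkM h1
      have e2 : ((k : M₁) : G) * ((((⟨m, hm⟩⁻¹ * (k : M₁) : M₁)) : G)⁻¹ * x *
          ((⟨m, hm⟩⁻¹ * (k : M₁) : M₁) : G)) * ((k : M₁) : G)⁻¹ = m * x * m⁻¹ := by
        simp [mul_assoc]
      rwa [e2] at h2
    · intro hA c
      have := ((a2 x).mp hA).2 ((c.out : M₁) : G)⁻¹ (M₁.inv_mem c.out.2)
      simpa using this
  have h1 := Subgroup.card_subgroup_dvd_card Φ.range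
  rw [← Subgroup.index_ker, hker, Nat.card_fun] at h1
  exact h1

/-- Wielandt's bound -/
theorem relIndex_a2_dvd [Finite G] (a1 : IsCor M₁ M₂ A₁) (b1 : IsCor M₂ M₁ B₁)
    (a2 : IsCor M₁ B₁ A₂) :
    A₂.relIndex M₁ ∣ (M₂.relIndex M₁)! * ((M₁.relIndex M₂ - 1)!) ^ (M₂.relIndex M₁) := by
  have hA2A1 : A₂ ≤ A₁ := a1.le_of a2.normIn (a2.le_right.trans b1.le_left)
  rw [← relIndex_mul_relIndex A₂ A₁ M₁ hA2A1 a1.le_left, mul_comm]
  apply mul_dvd_mul (relIndex_cor_dvd a1)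
  exact (relIndex_a2_a1_dvd a1 b1 a2).trans (pow_dvd_pow_of_dvd (relIndex_cor_inf_dvd b1) _)

end Cfsg.Agent.Lib.Helper60TWIdx
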