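import Cfsg.Agent.Lib.Helper60TWIdx

set_option autoImplicit false
set_option linter.unusedSectionVars false

/-! Thompson-Wielandt for primitive permutation groups: two point stabilisers. -/

namespace Cfsg.Agent.Lib.Helper60TWPrim

open Subgroup Nat MulAction
open Cfsg.Agent.Lib.Helper28Comp (NormIn Sn CompIn)
open Cfsg.Agent.Lib.Helper28Layer (layerIn fittingIn gfitIn)
open Cfsg.Agent.Lib.Helper27Rel (pcoreIn CP)
open Cfsg.Agent.Lib.Helper60TW Cfsg.Agent.Lib.Helper60TWIdx
open Cfsg.Agent.Lib

universe u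

theorem card_inf_mul_relIndex {G : Type*} [Group G] (H K : Subgroup G) :
    Nat.card (H ⊓ K : Subgroup G) * H.relIndex K = Nat.card K := by
  have := relIndex_mul_relIndex ⊥ (H ⊓ K) K bot_le inf_le_right
  rwa [relIndex_bot_left, relIndex_bot_left, inf_relIndex_right] at this

variable {G : Type u} {Ω : Type*} [Group G] [Finite G] [MulAction G Ω] [FaithfulSMul G Ω] [Finite Ω]

/-- the configuration attached to two points of a primitive group -/
theorem exists_cfg (hprim : IsPreprimitive G Ω) (a b : Ω) (d : ℕ)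
    (hd : Nat.card (orbit (stabilizer G a) b) = d) (h2 : 2 ≤ d) :
    ∃ A₁ B₁ A₂ B₂ : Subgroup G, Cfg (stabilizer G a) (stabilizer G b) A₁ B₁ A₂ B₂ ∧
      (stabilizer G b).relIndex (stabilizer G a) = d ∧
      (stabilizer G a).relIndex (stabilizer G b) = d ∧
      Nat.card (stabilizer G a) = Nat.card (stabilizer G b) := by
  have htr : IsPretransitive G Ω := hprim.toIsPretransitive
  obtain ⟨g, hg⟩ := exists_smul_eq G a b
  have hconj : stabilizer G b = (stabilizer G a).map (MulAut.conj g).toMonoidHom := by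
    rw [← hg, stabilizer_smul_eq_stabilizer_map_conj]
  have hst : stabilizer (stabilizer G a) b = (stabilizer G b).subgroupOf (stabilizer G a) := by
    ext x
    rw [mem_stabilizer_iff, mem_subgroupOf, mem_stabilizer_iff]
    rfl
  have hrel : (stabilizer G b).relIndex (stabilizer G a) = d := by
    unfold relIndex
    rw [← hst, index_stabilizer, ← hd, Nat.card_coe_set_eq]
  have hne : stabilizer G a ≠ stabilizer G b := by
    intro h
    rw [← h, relIndex_self] at hrel
    omega
  have hab : a ≠ b := by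
    rintro rfl
    exact hne rfl
  have hnt : Nontrivial Ω := ⟨a, b, hab⟩
  have hmax : IsCoatom (stabilizer G a) := (isCoatom_stabilizer_iff_preprimitive G a).mpr hprim
  have hcore : (stabilizer G a).normalCore = ⊥ := by
    rw [eq_bot_iff]
    intro x hx
    rw [mem_bot]
    apply FaithfulSMul.eq_of_smul_eq_smul (α := Ω)
    intro c
    obtain ⟨k, rfl⟩ := exists_smul_eq G a c
    have h1 : k⁻¹ * x * k⁻¹⁻¹ ∈ stabilizer G a := hx k⁻¹
    rw [mem_stabilizer_iff, inv_inv, mul_smul, mul_smul, inv_smul_eq_iff] at h1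
    rw [h1, one_smul]
  have hcard : Nat.card (stabilizer G a) = Nat.card (stabilizer G b) := by
    rw [hconj, card_map_of_injective (MulAut.conj g).injective]
  refine ⟨_, _, _, _, cfg_of hmax g hconj hne hcore, hrel, ?_, hcard⟩
  have e1 := card_inf_mul_relIndex (stabilizer G b) (stabilizer G a)
  have e2 := card_inf_mul_relIndex (stabilizer G a) (stabilizer G b)
  rw [hrel, inf_comm, hcard, ← e2] at e1
  have hpos : 0 < Nat.card (stabilizer G a ⊓ stabilizer G b : Subgroup G) := Nat.card_pos
  exact (Nat.eq_of_mul_eq_mul_left hpos e1).symm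

/-- either the order of the stabiliser is bounded or both second cores are non-trivial -/
theorem card_dvd_or {M₁ M₂ A₁ B₁ A₂ B₂ : Subgroup G} (h : Cfg M₁ M₂ A₁ B₁ A₂ B₂) {d : ℕ}
    (h1 : M₂.relIndex M₁ = d) (h2 : M₁.relIndex M₂ = d) (hc : Nat.card M₁ = Nat.card M₂) :
    Nat.card M₁ ∣ d ! * ((d - 1)!) ^ d ∨ (A₂ ≠ ⊥ ∧ B₂ ≠ ⊥) := by
  by_cases hA : A₂ = ⊥
  · left
    have := relIndex_a2_dvd h.a1 h.b1 h.a2
    rwa [hA, relIndex_bot_left, h1, h2] at this
  · by_cases hB : B₂ = ⊥
    · left
      have := relIndex_a2_dvd h.b1 h.a1 h.b2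
      rwa [hB, relIndex_bot_left, h1, h2, ← hc] at this
    · exact Or.inr ⟨hA, hB⟩

end Cfsg.Agent.Lib.Helper60TWPrim
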