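import Mathlib

/-! PROJECT 4064 (S4064), piece `CS` (pure Mathlib). -/

set_option autoImplicit false

namespace Cfsg.Agent.Lib.Helper60TiCS

variable {G : Type*} [Group G] [Finite G]

open QuaternionGroup in
theorem quat_contra (m : ℕ) (hm : 4 ≤ m)
    (h : Commute (xa 0 : QuaternionGroup m) (a 1 * xa 0 * (a 1)⁻¹)) : False := by
  have hinv : ((a 1 : QuaternionGroup m))⁻¹ = a (-1) := by
    rw [inv_eq_iff_mul_eq_one, a_mul_a, add_neg_cancel, a_zero]
  have h1 : (a 1 * xa 0 * (a 1)⁻¹ : QuaternionGroup m) = xa (-2) := by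
    rw [hinv, a_mul_xa, xa_mul_a]
    congr 1
    ring
  rw [h1] at h
  have h2 := h.eq
  rw [xa_mul_xa, xa_mul_xa] at h2
  have h3 : ((m : ZMod (2 * m)) + -2 - 0) = (m : ZMod (2 * m)) + 0 - -2 := by
    injection h2
  have h4 : (4 : ZMod (2 * m)) = 0 := by
    have : (4 : ZMod (2 * m)) = ((m : ZMod (2 * m)) + 0 - -2) - ((m : ZMod (2 * m)) + -2 - 0) := by ring
    rw [this, h3, sub_self]
  have h5 : ((4 : ℕ) : ZMod (2 * m)) = 0 := by exact_mod_cast h4
  rw [ZMod.natCast_eq_zero_iff] at h5
  have := Nat.le_of_dvd (by norm_num) h5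
  omega

open QuaternionGroup in
theorem quat_center (m : ℕ) (x : QuaternionGroup m) : Commute x (a (m : ZMod (2 * m))) := by
  have h2 : (m : ZMod (2 * m)) + m = 0 := by
    have : ((2 * m : ℕ) : ZMod (2 * m)) = 0 := ZMod.natCast_self _
    rw [← this]; push_cast; ring
  cases x with
  | a i => show a i * a _ = a _ * a i; rw [a_mul_a, a_mul_a, add_comm]
  | xa i =>
    show xa i * a _ = a _ * xa i
    rw [xa_mul_a, a_mul_xa]
    congr 1
    linear_combination h2

open QuaternionGroup in
theorem quat_center_ne (m : ℕ) (hm : 0 < m) : (a (m : ZMod (2 * m)) : QuaternionGroup m) ≠ 1 := by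
  intro h
  rw [one_def] at h
  have h1 : (m : ZMod (2 * m)) = 0 := by injection h
  rw [ZMod.natCast_eq_zero_iff] at h1
  have := Nat.le_of_dvd hm h1
  omega

theorem prod_equiv (E C Q : Subgroup G) (hsup : C ⊔ Q = E) (hcomm : ∀ a ∈ C, ∀ b ∈ Q, a * b = b * a)
    (hcop : (Nat.card C).Coprime (Nat.card Q)) : Nonempty (E ≃* C × Q) := by
  have hc : ∀ (c : C) (q : Q), Commute (C.subtype c) (Q.subtype q) := fun c q => hcomm c c.2 q q.2
  obtain ⟨f, hf⟩ : ∃ f : C × Q →* G, f = MonoidHom.noncommCoprod C.subtype Q.subtype hc := ⟨_, rfl⟩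
  have hinj : Function.Injective f := by
    rw [hf, MonoidHom.noncommCoprod_injective]
    refine ⟨Subtype.val_injective, Subtype.val_injective, ?_⟩
    rw [Subgroup.range_subtype, Subgroup.range_subtype]
    exact Subgroup.disjoint_of_coprime_natCard hcop
  have hrange : f.range = E := by
    rw [hf, MonoidHom.noncommCoprod_range, Subgroup.range_subtype, Subgroup.range_subtype, hsup]
  exact ⟨((MonoidHom.ofInjective hinj).trans (MulEquiv.subgroupCongr hrange)).symm⟩

theorem compl_struct
    (hengel : ∀ w a b : G, w ≠ 1 → Commute a w → Commute b w → Commute a (b * a * b⁻¹))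
    (E C Q : Subgroup G) (hsup : C ⊔ Q = E) (hcomm : ∀ a ∈ C, ∀ b ∈ Q, a * b = b * a)
    (hC : IsCyclic C) (hodd : Odd (Nat.card C)) (n : ℕ)
    (e : Nonempty (↥Q ≃* QuaternionGroup (2 ^ n))) :
    IsCyclic E ∨ ∃ m : ℕ, Odd m ∧
      Nonempty (E ≃* Multiplicative (ZMod m) × QuaternionGroup 2) := by
  obtain ⟨e⟩ := e
  have hpos : 0 < 2 ^ n := by positivity
  have : NeZero (2 ^ n) := ⟨hpos.ne'⟩
  have hQcard : Nat.card Q = 4 * 2 ^ n := by
    rw [Nat.card_congr e.toEquiv, Nat.card_eq_fintype_card, QuaternionGroup.card]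
  have hcop : (Nat.card C).Coprime (Nat.card Q) := by
    rw [hQcard, show 4 * 2 ^ n = 2 ^ (n + 2) by ring]
    exact Nat.Coprime.pow_right _ (Nat.coprime_two_right.mpr hodd)
  obtain ⟨φ⟩ := prod_equiv E C Q hsup hcomm hcop
  by_cases hn : 2 ≤ n
  · exfalso
    have hm : 4 ≤ 2 ^ n := by
      calc 4 = 2 ^ 2 := by norm_num
        _ ≤ 2 ^ n := Nat.pow_le_pow_right (by norm_num) hn
    apply quat_contra (2 ^ n) hm
    set w : Q := e.symm (QuaternionGroup.a ((2 ^ n : ℕ) : ZMod (2 * 2 ^ n))) with hw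
    have hw1 : (w : G) ≠ 1 := by
      intro h
      have h1 : w = 1 := Subtype.ext h
      rw [hw, MulEquiv.map_eq_one_iff] at h1
      exact quat_center_ne _ hpos h1
    have hcw : ∀ x : Q, Commute (x : G) (w : G) := by
      intro x
      have h1 : Commute (e x) (e w) := by
        rw [hw, MulEquiv.apply_symm_apply]
        exact quat_center _ _
      have h2 : x * w = w * x := by
        apply e.injective
        rw [map_mul, map_mul]
        exact h1.eq
      exact congrArg Subtype.val h2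
    have key := hengel (w : G) (e.symm (QuaternionGroup.xa 0) : Q) (e.symm (QuaternionGroup.a 1) : Q)
      hw1 (hcw _) (hcw _)
    have key2 : (e.symm (QuaternionGroup.xa 0)) *
        ((e.symm (QuaternionGroup.a 1)) * (e.symm (QuaternionGroup.xa 0)) *
          (e.symm (QuaternionGroup.a 1))⁻¹) =
        ((e.symm (QuaternionGroup.a 1)) * (e.symm (QuaternionGroup.xa 0)) *
          (e.symm (QuaternionGroup.a 1))⁻¹) * (e.symm (QuaternionGroup.xa 0)) :=
      Subtype.ext key.eq
    have key3 := congrArg e key2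
    simp only [map_mul, map_inv, MulEquiv.apply_symm_apply] at key3
    exact key3
  · have hn' : n = 0 ∨ n = 1 := by omega
    rcases hn' with rfl | rfl
    · left
      have hQc : IsCyclic Q := by
        have : IsCyclic (QuaternionGroup (2 ^ 0)) := by
          rw [pow_zero]; exact QuaternionGroup.quaternionGroup_one_isCyclic
        exact (e.isCyclic).mpr this
      rw [φ.isCyclic, Group.isCyclic_prod_iff]
      exact ⟨hC, hQc, hcop⟩
    · right
      refine ⟨Nat.card C, hodd, ⟨φ.trans (MulEquiv.prodCongr (zmodCyclicMulEquiv hC).symm ?_)⟩⟩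
      exact e.trans (by rw [pow_one])

end Cfsg.Agent.Lib.Helper60TiCS
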