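import Mathlib
import Cfsg.Agent.Lib.Helper61SzDegArith

set_option autoImplicit false

/-! Project 61, part E, piece `arithCls`. -/

namespace Cfsg.Agent.Lib.Helper61SzCovArith

open Cfsg.Agent.Lib.Helper61SzDegArith

set_option maxHeartbeats 1600000 in
theorem arithCls {X : Type*} [Fintype X] [DecidableEq X] (q d : ℕ) (hq : 4 ≤ q)
    (hq2 : ∃ n : ℕ, q = 2 ^ n) (hd : 2 * d ^ 2 = q) (x₁ xs : X) (T : Finset X)
    (m b l deg : X → ℕ) (hm1 : m x₁ = 0) (hm : ∀ x, m x ≤ 1) (hmm : ∑ x, m x ^ 2 = q)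
    (hBB : ∑ x, (d * b x) ^ 2 = q + q ^ 2 * (q - 1)) (hmB : ∑ x, m x * (d * b x) = q * (q - 1))
    (hTc : T.card = q / 2 - 1) (hT : ∀ x ∈ T, l x = 2 ∧ deg x = q ^ 2 + 1)
    (h1T : x₁ ∉ T) (hsT : xs ∉ T) (hs1 : xs ≠ x₁) (hl1 : l x₁ = 1) (hls : l xs = 1)
    (hl0 : ∀ x, x ∉ T → x ≠ x₁ → x ≠ xs → l x = 0)
    (hdeg : ∀ x, deg x = (q - 1) * (d * b x) + (q - 1) * m x + l x)
    (hdvd : ∀ x, deg x ∣ (q ^ 2 + 1) * q ^ 2 * (q - 1)) (hdeg1 : deg x₁ = 1) :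
    2 ≤ d ∧ m xs = 1 ∧ b xs = 2 * d ∧ (∀ x ∈ T, m x = 1 ∧ b x = 2 * d) ∧
    ∃ (w₁ w₂ : X) (P M : Finset X), w₁ ≠ w₂ ∧
      (m w₁ = 0 ∧ b w₁ = 1 ∧ l w₁ = 0) ∧ (m w₂ = 0 ∧ b w₂ = 1 ∧ l w₂ = 0) ∧
      (∀ x ∈ P, m x = 1 ∧ b x = 2 * d + 2 ∧ l x = 0) ∧ (∀ x ∈ M, m x = 1 ∧ b x + 2 = 2 * d ∧ l x = 0) ∧
      2 * P.card + d = d ^ 2 ∧ 2 * M.card = d ^ 2 + d ∧
      (∀ x, x = x₁ ∨ x = xs ∨ x = w₁ ∨ x = w₂ ∨ x ∈ T ∨ x ∈ P ∨ x ∈ M) ∧
      (∀ f : X → ℂ, ∑ x, f x = f x₁ + f xs + f w₁ + f w₂ + ∑ x ∈ T, f x + ∑ x ∈ P, f x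
        + ∑ x ∈ M, f x) := by
  have hd2 : 2 ≤ d := by
    by_contra h
    have h1 : d ≤ 1 := by omega
    have h2 : d ^ 2 ≤ 1 := by nlinarith
    omega
  have hd0 : 0 < d := by omega
  obtain ⟨k, hk⟩ : ∃ k, d = 2 * k := by
    obtain ⟨n, hn⟩ := hq2
    have h1 : d ∣ 2 ^ n := ⟨2 * d, by rw [← hn, ← hd]; ring⟩
    obtain ⟨j, -, hj⟩ := (Nat.dvd_prime_pow Nat.prime_two).1 h1
    cases j with
    | zero => simp at hj; omega
    | succ j => exact ⟨2 ^ j, by rw [hj]; ring⟩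
  have hd4 : 4 ≤ d ^ 2 := by nlinarith
  obtain ⟨e, he⟩ : ∃ e, 2 * d ^ 2 = e + 1 := ⟨2 * d ^ 2 - 1, by omega⟩
  subst hd
  have he' : 2 * d ^ 2 - 1 = e := by omega
  simp only [he'] at hBB hmB hdeg hdvd
  have he0 : 0 < e := by omega
  have hTc' : T.card + 1 = d ^ 2 := by omega
  have heZ : (e : ℤ) = 2 * (d : ℤ) ^ 2 - 1 := by
    have : ((2 * d ^ 2 : ℕ) : ℤ) = ((e + 1 : ℕ) : ℤ) := by rw [he]
    push_cast at this
    linarith
  have hdZ : (2 : ℤ) ≤ d := by exact_mod_cast hd2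
  have hTZ : (T.card : ℤ) = (d : ℤ) ^ 2 - 1 := by
    have : ((T.card + 1 : ℕ) : ℤ) = ((d ^ 2 : ℕ) : ℤ) := by rw [hTc']
    push_cast at this
    linarith
  have hmsq : ∀ x, m x ^ 2 = m x := by
    intro x
    rcases Nat.le_one_iff_eq_zero_or_eq_one.1 (hm x) with h | h <;> rw [h] <;> rfl
  have hS1 : ∑ x, (m x : ℤ) = 2 * (d : ℤ) ^ 2 := by
    have : ∑ x, m x = 2 * d ^ 2 := by
      rw [← hmm]; exact Finset.sum_congr rfl (fun x _ => (hmsq x).symm)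
    exact_mod_cast this
  have hS2 : ∑ x, (m x : ℤ) * b x = 2 * d * e := by
    have h1 : d * ∑ x, m x * b x = d * (2 * d * e) := by
      rw [Finset.mul_sum]
      calc ∑ x, d * (m x * b x) = ∑ x, m x * (d * b x) :=
            Finset.sum_congr rfl (fun x _ => by ring)
        _ = 2 * d ^ 2 * e := hmB
        _ = d * (2 * d * e) := by ring
    have h2 := Nat.eq_of_mul_eq_mul_left hd0 h1
    exact_mod_cast h2
  have hS3 : ∑ x, (b x : ℤ) ^ 2 = 2 + 4 * d ^ 2 * e := by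
    have h1 : d ^ 2 * ∑ x, b x ^ 2 = d ^ 2 * (2 + 4 * d ^ 2 * e) := by
      rw [Finset.mul_sum]
      calc ∑ x, d ^ 2 * b x ^ 2 = ∑ x, (d * b x) ^ 2 :=
            Finset.sum_congr rfl (fun x _ => by ring)
        _ = 2 * d ^ 2 + (2 * d ^ 2) ^ 2 * e := hBB
        _ = d ^ 2 * (2 + 4 * d ^ 2 * e) := by ring
    have h2 := Nat.eq_of_mul_eq_mul_left (by positivity) h1
    exact_mod_cast h2
  have hsT' : ∑ x, (if x ∈ T then (1 : ℤ) else 0) = T.card := by simp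
  have hss : ∀ c : ℤ, ∑ x, (if x = xs then c else 0) = c := by intro c; simp
  obtain ⟨g, hg⟩ : ∃ g : X → ℤ, ∀ x, g x =
      (b x : ℤ) ^ 2 - 4 * d * ((m x : ℤ) * b x) + 4 * d ^ 2 * m x
      - 4 * ((m x : ℤ) - (if x ∈ T then 1 else 0) - (if x = xs then (m xs : ℤ) else 0)) :=
    ⟨_, fun _ => rfl⟩
  have hgsum : ∑ x, g x = 4 * (m xs : ℤ) - 2 := by
    simp only [hg, Finset.sum_sub_distrib, Finset.sum_add_distrib, ← Finset.mul_sum, hS1, hS2, hS3,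
      hsT', hss, hTZ, heZ]
    ring
  have hb1 : b x₁ = 0 := by
    have h := hdeg x₁
    rw [hdeg1, hm1, hl1] at h
    have h2 : e * (d * b x₁) = 0 := by omega
    rcases mul_eq_zero.1 h2 with h | h
    · omega
    · rcases mul_eq_zero.1 h with h | h
      · omega
      · exact h
  have hTmb : ∀ x ∈ T, m x = 1 ∧ b x = 2 * d := by
    intro x hx
    obtain ⟨h1, h2⟩ := hT x hx
    have h := hdeg x
    rw [h1, h2] at h
    have h3 : e * (d * b x + m x) = e * (2 * d ^ 2 + 1) := by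
      have h0 : (2 * d ^ 2) ^ 2 = e * (2 * d ^ 2 + 1) + 1 := by rw [he]; ring
      have h0' : e * (d * b x + m x) = e * (d * b x) + e * m x := by ring
      omega
    have h4 := Nat.eq_of_mul_eq_mul_left he0 h3
    rcases Nat.le_one_iff_eq_zero_or_eq_one.1 (hm x) with hmx | hmx
    · exfalso
      have h7 : d ∣ 1 := by
        have h5 : d ∣ 2 * d ^ 2 + 1 := ⟨b x, by omega⟩
        have h6 : d ∣ 2 * d ^ 2 := ⟨2 * d, by ring⟩
        exact (Nat.dvd_add_right h6).1 h5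
      have := Nat.le_of_dvd one_pos h7
      omega
    · refine ⟨hmx, ?_⟩
      have h5 : d * b x = d * (2 * d) := by
        have : d * (2 * d) = 2 * d ^ 2 := by ring
        omega
      exact Nat.eq_of_mul_eq_mul_left hd0 h5
  have hg1 : g x₁ = 0 := by
    rw [hg, hm1, hb1, if_neg h1T, if_neg (Ne.symm hs1)]; simp
  have hgT : ∀ x ∈ T, g x = 0 := by
    intro x hx
    obtain ⟨h1, h2⟩ := hTmb x hx
    have hxs : x ≠ xs := fun h => hsT (h ▸ hx)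
    rw [hg, h1, h2, if_pos hx, if_neg hxs]; push_cast; ring
  have hgs : g xs = (b xs : ℤ) ^ 2 - 4 * d * ((m xs : ℤ) * b xs) + 4 * d ^ 2 * m xs := by
    rw [hg, if_neg hsT, if_pos rfl]; ring
  have hgA : ∀ x, x ∉ T → x ≠ x₁ → x ≠ xs → m x = 1 → g x = ((b x : ℤ) - 2 * d) ^ 2 - 4 ∧
      (((b x : ℤ) - 2 * d) ^ 2 = 4 ∨ 9 ≤ ((b x : ℤ) - 2 * d) ^ 2) := by
    intro x h1 h2 h3 h4
    constructor
    · rw [hg, h4, if_neg h1, if_neg h3]; push_cast; ring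
    · apply clsA d k (b x) hd2 hk e he
      have := hdvd x
      rw [hdeg x, h4, hl0 x h1 h2 h3] at this
      exact this
  have hgC : ∀ x, x ∉ T → x ≠ x₁ → x ≠ xs → m x = 0 → g x = (b x : ℤ) ^ 2 ∧ 1 ≤ b x := by
    intro x h1 h2 h3 h4
    constructor
    · rw [hg, h4, if_neg h1, if_neg h3]; push_cast; ring
    · by_contra hb
      have hb0 : b x = 0 := by omega
      have := hdvd x
      rw [hdeg x, h4, hl0 x h1 h2 h3, hb0] at this
      have h5 : 0 < ((2 * d ^ 2) ^ 2 + 1) * (2 * d ^ 2) ^ 2 * e := by positivity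
      simp only [mul_zero, add_zero, zero_dvd_iff] at this
      omega
  have hcls : ∀ x, x = x₁ ∨ x ∈ T ∨ x = xs ∨ (x ∉ T ∧ x ≠ x₁ ∧ x ≠ xs ∧ m x = 1) ∨
      (x ∉ T ∧ x ≠ x₁ ∧ x ≠ xs ∧ m x = 0) := by
    intro x
    by_cases h1 : x = x₁
    · exact Or.inl h1
    by_cases h2 : x ∈ T
    · exact Or.inr (Or.inl h2)
    by_cases h3 : x = xs
    · exact Or.inr (Or.inr (Or.inl h3))
    rcases Nat.le_one_iff_eq_zero_or_eq_one.1 (hm x) with h | h
    · exact Or.inr (Or.inr (Or.inr (Or.inr ⟨h2, h1, h3, h⟩)))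
    · exact Or.inr (Or.inr (Or.inr (Or.inl ⟨h2, h1, h3, h⟩)))
  have hgs0 : 0 ≤ g xs := by
    rw [hgs]
    rcases Nat.le_one_iff_eq_zero_or_eq_one.1 (hm xs) with h | h
    · have h' : (b xs : ℤ) ^ 2 - 4 * d * ((m xs : ℤ) * b xs) + 4 * d ^ 2 * m xs
          = (b xs : ℤ) ^ 2 := by rw [h]; push_cast; ring
      rw [h']; positivity
    · have h' : (b xs : ℤ) ^ 2 - 4 * d * ((m xs : ℤ) * b xs) + 4 * d ^ 2 * m xs
          = ((b xs : ℤ) - 2 * d) ^ 2 := by rw [h]; push_cast; ring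
      rw [h']; positivity
  have hg0 : ∀ x, 0 ≤ g x := by
    intro x
    rcases hcls x with h | h | h | ⟨h1, h2, h3, h4⟩ | ⟨h1, h2, h3, h4⟩
    · rw [h, hg1]
    · rw [hgT x h]
    · rw [h]; exact hgs0
    · obtain ⟨h5, h6⟩ := hgA x h1 h2 h3 h4
      rw [h5]; rcases h6 with h6 | h6 <;> linarith
    · rw [(hgC x h1 h2 h3 h4).1]; positivity
  have hms : m xs = 1 := by
    have h1 : 0 ≤ ∑ x, g x := Finset.sum_nonneg (fun x _ => hg0 x)
    rw [hgsum] at h1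
    have := hm xs
    omega
  have hgsum2 : ∑ x, g x = 2 := by rw [hgsum, hms]; norm_num
  have hgle : ∀ x, g x ≤ 2 := by
    intro x
    rw [← hgsum2]
    exact Finset.single_le_sum (fun y _ => hg0 y) (Finset.mem_univ x)
  have hA : ∀ x, x ∉ T → x ≠ x₁ → x ≠ xs → m x = 1 → ((b x : ℤ) - 2 * d) ^ 2 = 4 := by
    intro x h1 h2 h3 h4
    obtain ⟨h5, h6⟩ := hgA x h1 h2 h3 h4
    have := hgle x
    rcases h6 with h6 | h6
    · exact h6
    · linarith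
  have hbs : b xs = 2 * d := by
    have h1 : g xs = ((b xs : ℤ) - 2 * d) ^ 2 := by rw [hgs, hms]; push_cast; ring
    have h2 := hgle xs
    rw [h1] at h2
    have h3 : ((b xs : ℤ) - 2 * d) ^ 2 ≠ 1 := by
      apply clsS d (b xs) hd2 e he
      have := hdvd xs
      rw [hdeg xs, hms, hls] at this
      exact this
    have h4 : (b xs : ℤ) - 2 * d = 0 := aux1 _ h2 h3
    have : (b xs : ℤ) = 2 * d := by linarith
    exact_mod_cast this
  have hC : ∀ x, x ∉ T → x ≠ x₁ → x ≠ xs → m x = 0 → b x = 1 := by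
    intro x h1 h2 h3 h4
    obtain ⟨h5, h6⟩ := hgC x h1 h2 h3 h4
    have h7 := hgle x
    rw [h5] at h7
    have h8 : b x ^ 2 ≤ 2 := by exact_mod_cast h7
    have : b x < 2 := aux2 _ h8
    omega
  have hCne : ∃ x, x ∉ T ∧ x ≠ x₁ ∧ x ≠ xs ∧ m x = 0 := by
    by_contra hne
    push_neg at hne
    have : ∑ x, g x = 0 := by
      apply Finset.sum_eq_zero
      intro x _
      rcases hcls x with h | h | h | ⟨h1, h2, h3, h4⟩ | ⟨h1, h2, h3, h4⟩
      · rw [h]; exact hg1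
      · exact hgT x h
      · rw [h, hgs, hms, hbs]; push_cast; ring
      · rw [(hgA x h1 h2 h3 h4).1, hA x h1 h2 h3 h4]; norm_num
      · exact absurd h4 (hne x h1 h2 h3)
    omega
  have hasum : ∑ x, ((m x : ℤ) - (if x ∈ T then 1 else 0) - (if x = xs then (1 : ℤ) else 0))
      = d ^ 2 := by
    simp only [Finset.sum_sub_distrib, hS1, hsT', hss, hTZ]
    ring
  have hmbsum : ∑ x, (m x : ℤ) * ((b x : ℤ) - 2 * d) = - 2 * d := by
    simp only [mul_sub, Finset.sum_sub_distrib, hS2]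
    rw [← Finset.sum_mul, hS1, heZ]; ring
  -- the three remaining families
  obtain ⟨P, hP⟩ : ∃ P : Finset X, ∀ x, x ∈ P ↔
      (x ∉ T ∧ x ≠ x₁ ∧ x ≠ xs ∧ m x = 1 ∧ b x = 2 * d + 2) :=
    ⟨Finset.univ.filter (fun x => x ∉ T ∧ x ≠ x₁ ∧ x ≠ xs ∧ m x = 1 ∧ b x = 2 * d + 2),
      fun x => by simp⟩
  obtain ⟨M, hM⟩ : ∃ M : Finset X, ∀ x, x ∈ M ↔
      (x ∉ T ∧ x ≠ x₁ ∧ x ≠ xs ∧ m x = 1 ∧ b x + 2 = 2 * d) :=
    ⟨Finset.univ.filter (fun x => x ∉ T ∧ x ≠ x₁ ∧ x ≠ xs ∧ m x = 1 ∧ b x + 2 = 2 * d),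
      fun x => by simp⟩
  obtain ⟨C, hC'⟩ : ∃ C : Finset X, ∀ x, x ∈ C ↔ (x ∉ T ∧ x ≠ x₁ ∧ x ≠ xs ∧ m x = 0) :=
    ⟨Finset.univ.filter (fun x => x ∉ T ∧ x ≠ x₁ ∧ x ≠ xs ∧ m x = 0), fun x => by simp⟩
  have hPM : ∀ x, x ∉ T → x ≠ x₁ → x ≠ xs → m x = 1 → (x ∈ P ∧ x ∉ M) ∨ (x ∈ M ∧ x ∉ P) := by
    intro x h1 h2 h3 h4
    have h5 := hA x h1 h2 h3 h4
    have h7 : ((b x : ℤ) - 2 * d - 2) * ((b x : ℤ) - 2 * d + 2) = 0 := by linear_combination h5
    rcases mul_eq_zero.1 h7 with h7 | h7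
    · left
      have h8 : b x = 2 * d + 2 := by
        have : (b x : ℤ) = 2 * d + 2 := by linarith
        exact_mod_cast this
      refine ⟨(hP x).2 ⟨h1, h2, h3, h4, h8⟩, fun h => ?_⟩
      have := ((hM x).1 h).2.2.2.2
      omega
    · right
      have h8 : b x + 2 = 2 * d := by
        have : (b x : ℤ) + 2 = 2 * d := by linarith
        exact_mod_cast this
      refine ⟨(hM x).2 ⟨h1, h2, h3, h4, h8⟩, fun h => ?_⟩
      have := ((hP x).1 h).2.2.2.2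
      omega
  have hCcard : C.card = 2 := by
    have h1 : ∀ x, g x = if x ∈ C then 1 else 0 := by
      intro x
      rcases hcls x with h | h | h | ⟨h1, h2, h3, h4⟩ | ⟨h1, h2, h3, h4⟩
      · rw [if_neg (fun hx => ((hC' x).1 hx).2.1 h), h, hg1]
      · rw [if_neg (fun hx => ((hC' x).1 hx).1 h), hgT x h]
      · rw [if_neg (fun hx => ((hC' x).1 hx).2.2.1 h), h, hgs, hms, hbs]; push_cast; ring
      · rw [if_neg (fun hx => by have := ((hC' x).1 hx).2.2.2; omega), (hgA x h1 h2 h3 h4).1,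
          hA x h1 h2 h3 h4]; norm_num
      · rw [if_pos ((hC' x).2 ⟨h1, h2, h3, h4⟩), (hgC x h1 h2 h3 h4).1, hC x h1 h2 h3 h4]; norm_num
    have h2 : ∑ x, g x = (C.card : ℤ) := by
      rw [Finset.sum_congr rfl (fun x _ => h1 x)]; simp
    have h3 : (C.card : ℤ) = 2 := by rw [← h2, hgsum2]
    exact_mod_cast h3
  obtain ⟨w₁, w₂, hw, hCw⟩ := Finset.card_eq_two.1 hCcard
  have hw₁ := (hC' w₁).1 (by rw [hCw]; simp)
  have hw₂ := (hC' w₂).1 (by rw [hCw]; simp)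
  have hsP : ∑ x, (if x ∈ P then (1 : ℤ) else 0) = P.card := by simp
  have hsM : ∑ x, (if x ∈ M then (1 : ℤ) else 0) = M.card := by simp
  have hc1 : (P.card : ℤ) + M.card = d ^ 2 := by
    rw [← hasum, ← hsP, ← hsM, ← Finset.sum_add_distrib]
    apply Finset.sum_congr rfl
    intro x _
    rcases hcls x with h | h | h | ⟨h1, h2, h3, h4⟩ | ⟨h1, h2, h3, h4⟩
    · rw [if_neg (fun hx => ((hP x).1 hx).2.1 h), if_neg (fun hx => ((hM x).1 hx).2.1 h), h, hm1,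
        if_neg h1T, if_neg (Ne.symm hs1)]; simp
    · have hxs : x ≠ xs := fun h' => hsT (h' ▸ h)
      rw [if_neg (fun hx => ((hP x).1 hx).1 h), if_neg (fun hx => ((hM x).1 hx).1 h),
        (hTmb x h).1, if_pos h, if_neg hxs]; simp
    · rw [if_neg (fun hx => ((hP x).1 hx).2.2.1 h), if_neg (fun hx => ((hM x).1 hx).2.2.1 h), h, hms,
        if_neg hsT, if_pos rfl]; simp
    · rw [h4, if_neg h1, if_neg h3]
      rcases hPM x h1 h2 h3 h4 with ⟨h5, h6⟩ | ⟨h5, h6⟩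
      · rw [if_pos h5, if_neg h6]; simp
      · rw [if_pos h5, if_neg h6]; simp
    · rw [if_neg (fun hx => by have := ((hP x).1 hx).2.2.2.1; omega),
        if_neg (fun hx => by have := ((hM x).1 hx).2.2.2.1; omega), h4, if_neg h1, if_neg h3]; simp
  have hc2 : 2 * (P.card : ℤ) - 2 * M.card = -2 * d := by
    rw [← hmbsum, ← hsP, ← hsM, Finset.mul_sum, Finset.mul_sum, ← Finset.sum_sub_distrib]
    apply Finset.sum_congr rfl
    intro x _
    rcases hcls x with h | h | h | ⟨h1, h2, h3, h4⟩ | ⟨h1, h2, h3, h4⟩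
    · rw [if_neg (fun hx => ((hP x).1 hx).2.1 h), if_neg (fun hx => ((hM x).1 hx).2.1 h), h, hm1]; simp
    · rw [if_neg (fun hx => ((hP x).1 hx).1 h), if_neg (fun hx => ((hM x).1 hx).1 h),
        (hTmb x h).1, (hTmb x h).2]; push_cast; ring
    · rw [if_neg (fun hx => ((hP x).1 hx).2.2.1 h), if_neg (fun hx => ((hM x).1 hx).2.2.1 h), h, hms,
        hbs]; push_cast; ring
    · rw [h4]
      rcases hPM x h1 h2 h3 h4 with ⟨h5, h6⟩ | ⟨h5, h6⟩
      · rw [if_pos h5, if_neg h6, ((hP x).1 h5).2.2.2.2]; push_cast; ring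
      · rw [if_pos h5, if_neg h6]
        have h7 : (b x : ℤ) + 2 = 2 * d := by exact_mod_cast ((hM x).1 h5).2.2.2.2
        push_cast
        linarith
    · rw [if_neg (fun hx => by have := ((hP x).1 hx).2.2.2.1; omega),
        if_neg (fun hx => by have := ((hM x).1 hx).2.2.2.1; omega), h4]; simp
  have hmem : ∀ x, x = x₁ ∨ x = xs ∨ x = w₁ ∨ x = w₂ ∨ x ∈ T ∨ x ∈ P ∨ x ∈ M := by
    intro x
    rcases hcls x with h | h | h | ⟨h1, h2, h3, h4⟩ | ⟨h1, h2, h3, h4⟩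
    · exact Or.inl h
    · exact Or.inr (Or.inr (Or.inr (Or.inr (Or.inl h))))
    · exact Or.inr (Or.inl h)
    · rcases hPM x h1 h2 h3 h4 with ⟨h5, -⟩ | ⟨h5, -⟩
      · exact Or.inr (Or.inr (Or.inr (Or.inr (Or.inr (Or.inl h5)))))
      · exact Or.inr (Or.inr (Or.inr (Or.inr (Or.inr (Or.inr h5)))))
    · have h5 : x ∈ C := (hC' x).2 ⟨h1, h2, h3, h4⟩
      rw [hCw] at h5
      simp only [Finset.mem_insert, Finset.mem_singleton] at h5
      rcases h5 with h5 | h5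
      · exact Or.inr (Or.inr (Or.inl h5))
      · exact Or.inr (Or.inr (Or.inr (Or.inl h5)))
  refine ⟨hd2, hms, hbs, hTmb, w₁, w₂, P, M, hw,
    ⟨hw₁.2.2.2, hC w₁ hw₁.1 hw₁.2.1 hw₁.2.2.1 hw₁.2.2.2, hl0 w₁ hw₁.1 hw₁.2.1 hw₁.2.2.1⟩,
    ⟨hw₂.2.2.2, hC w₂ hw₂.1 hw₂.2.1 hw₂.2.2.1 hw₂.2.2.2, hl0 w₂ hw₂.1 hw₂.2.1 hw₂.2.2.1⟩,
    fun x hx => ?_, fun x hx => ?_, ?_, ?_, hmem, fun f => ?_⟩
  · have := (hP x).1 hx
    exact ⟨this.2.2.2.1, this.2.2.2.2, hl0 x this.1 this.2.1 this.2.2.1⟩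
  · have := (hM x).1 hx
    exact ⟨this.2.2.2.1, this.2.2.2.2, hl0 x this.1 this.2.1 this.2.2.1⟩
  · have : 2 * (P.card : ℤ) + d = d ^ 2 := by linarith
    exact_mod_cast this
  · have : 2 * (M.card : ℤ) = d ^ 2 + d := by linarith
    exact_mod_cast this
  · have hU : (Finset.univ : Finset X)
        = insert x₁ (insert xs (insert w₁ (insert w₂ (T ∪ (P ∪ M))))) := by
      ext x
      simp only [Finset.mem_univ, Finset.mem_insert, Finset.mem_union, true_iff]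
      exact hmem x
    have n1 : x₁ ∉ insert xs (insert w₁ (insert w₂ (T ∪ (P ∪ M)))) := by
      simp only [Finset.mem_insert, Finset.mem_union, not_or]
      exact ⟨Ne.symm hs1, Ne.symm hw₁.2.1, Ne.symm hw₂.2.1, h1T, fun h => ((hP _).1 h).2.1 rfl,
        fun h => ((hM _).1 h).2.1 rfl⟩
    have n2 : xs ∉ insert w₁ (insert w₂ (T ∪ (P ∪ M))) := by
      simp only [Finset.mem_insert, Finset.mem_union, not_or]
      exact ⟨Ne.symm hw₁.2.2.1, Ne.symm hw₂.2.2.1, hsT, fun h => ((hP _).1 h).2.2.1 rfl,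
        fun h => ((hM _).1 h).2.2.1 rfl⟩
    have n3 : w₁ ∉ insert w₂ (T ∪ (P ∪ M)) := by
      simp only [Finset.mem_insert, Finset.mem_union, not_or]
      exact ⟨hw, hw₁.1, fun h => by have := ((hP _).1 h).2.2.2.1; have := hw₁.2.2.2; omega,
        fun h => by have := ((hM _).1 h).2.2.2.1; have := hw₁.2.2.2; omega⟩
    have n4 : w₂ ∉ T ∪ (P ∪ M) := by
      simp only [Finset.mem_union, not_or]
      exact ⟨hw₂.1, fun h => by have := ((hP _).1 h).2.2.2.1; have := hw₂.2.2.2; omega,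
        fun h => by have := ((hM _).1 h).2.2.2.1; have := hw₂.2.2.2; omega⟩
    have d1 : Disjoint T (P ∪ M) := by
      rw [Finset.disjoint_left]
      intro x hx h
      rcases Finset.mem_union.1 h with h | h
      · exact ((hP x).1 h).1 hx
      · exact ((hM x).1 h).1 hx
    have d2 : Disjoint P M := by
      rw [Finset.disjoint_left]
      intro x hx h
      have h1 := ((hP x).1 hx).2.2.2.2
      have h2 := ((hM x).1 h).2.2.2.2
      omega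
    rw [hU, Finset.sum_insert n1, Finset.sum_insert n2, Finset.sum_insert n3, Finset.sum_insert n4,
      Finset.sum_union d1, Finset.sum_union d2]
    ring

end Cfsg.Agent.Lib.Helper61SzCovArith
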