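import Cfsg.Agent.Lib.Helper62EPa

set_option autoImplicit false
set_option maxRecDepth 100000

/-! The action of `G2(4)` on the 416 cosets of `J2` is extremely primitive. -/

namespace Cfsg.Agent.Lib.Helper62EPb

open Cfsg.Agent.Lib.Helper35TC Cfsg.Agent.Lib.Helper62Prim Cfsg.Agent.Lib.Helper62SuzH
  Cfsg.Agent.Lib.Helper62EPa

/-- the package of the enumeration -/
noncomputable abbrev KK := Cfsg.Agent.Lib.Helper35Suzc1.K

theorem okK : KK.Ok := Cfsg.Agent.Lib.Helper35Suzc1.ok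

/-- the action on the cosets -/
noncomputable def phi : P6 →* Equiv.Perm (Fin 416) := okK.phi

/-- the element given by a word -/
noncomputable def elt (w : List ℕ) : P6 := wordVal KK.valG w

theorem phi_gen (l : ℕ) (hl : l < 6) (j : Fin 416) : (phi (KK.valG l) j).val = A j.val l := by
  interval_cases l
  · exact okK.phi_mk_apply (.of .a) j
  · exact okK.phi_mk_apply (.of .b) j
  · exact okK.phi_mk_apply (.of .c) j
  · exact okK.phi_mk_apply (.of .d) j
  · exact okK.phi_mk_apply (.of .e) j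
  · exact okK.phi_mk_apply (.of .f) j

theorem walk_cons (l : ℕ) (w : List ℕ) (j : ℕ) : walk (l :: w) j = walk w (A j l) :=
  LData.walkA_cons _ l w j

theorem phi_elt : ∀ (w : List ℕ), (∀ l ∈ w, l < 6) → ∀ j : Fin 416,
    (phi (elt w) j).val = walk w j.val
  | [], _, j => by
    show (phi 1 j).val = j.val
    rw [map_one, Equiv.Perm.one_apply]
  | l :: w, hw, j => by
    show (phi (elt w * KK.valG l) j).val = _
    rw [map_mul, Equiv.Perm.mul_apply, phi_elt w (fun a ha => hw a (by simp [ha])), walk_cons,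
      phi_gen l (hw l (by simp))]

theorem mem_H_iff (g : P6) : g ∈ KK.H ↔ phi g 0 = 0 := okK.mem_H_iff g

theorem H_eq : KK.H = stab phi 0 := by
  ext g
  rw [mem_H_iff, mem_stab]

theorem elt_mem (w : List ℕ) (hw : ∀ l ∈ w, l < 6) (p : Fin 416) (h : walk w p.val = p.val) :
    elt w ∈ stab phi p := by
  rw [mem_stab]
  exact Fin.ext ((phi_elt w hw p).trans h)

theorem conn1 : ∀ i j : Fin 416, lab1 i.1 = lab1 j.1 → ∃ g ∈ stab phi 0, phi g i = j := by
  apply conn_of_tree phi (stab phi 0) (fun j => lab1 j.1) (fun j => dep1 j.1)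
    (fun c => if h : rt1 c < 416 then ⟨rt1 c, h⟩ else 0)
  intro j
  obtain ⟨_, _, h | ⟨h1, h2, h3, h4, h5, h6⟩⟩ := chk1 j
  · left
    apply Fin.ext
    have : rt1 (lab1 j.1) < 416 := by rw [h]; exact j.2
    simp only [dif_pos this]
    exact h.symm
  · right
    have hw : ∀ l ∈ [let1 j.1], l < 6 := by
      intro l hl
      rw [List.mem_singleton] at hl
      exact hl ▸ h1
    refine ⟨⟨A j.1 (let1 j.1), h3⟩, elt [let1 j.1], elt_mem _ hw 0 h2, ?_, h5, h6⟩
    apply Fin.ext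
    rw [phi_elt _ hw]
    exact h4

/-- the elements preserving the orbit labels -/
noncomputable def Inv : Subgroup P6 where
  carrier := {g | ∀ j : Fin 416, lab1 (phi g j).1 = lab1 j.1}
  one_mem' := by
    intro j
    rw [map_one, Equiv.Perm.one_apply]
  mul_mem' := by
    intro a b ha hb j
    rw [map_mul, Equiv.Perm.mul_apply, ha, hb]
  inv_mem' := by
    intro a ha j
    have := ha ((phi a⁻¹) j)
    rw [← Equiv.Perm.mul_apply, ← map_mul, mul_inv_cancel, map_one, Equiv.Perm.one_apply] at this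
    exact this.symm

theorem gen_mem_Inv (l : Fin 5) : KK.valG l.1 ∈ Inv := by
  intro j
  rw [phi_gen l.1 (by omega)]
  exact (chk1 j).2.1 l

theorem H_le_Inv : KK.H ≤ Inv := by
  apply okK.H_le
  intro e he
  have he' : e ∈ Cfsg.Agent.Lib.Helper35Suzc1.subExps := he
  simp only [Cfsg.Agent.Lib.Helper35Suzc1.subExps, List.mem_cons, List.not_mem_nil, or_false] at he'
  rcases he' with rfl | rfl | rfl | rfl | rfl
  · exact gen_mem_Inv 0
  · exact gen_mem_Inv 1
  · exact gen_mem_Inv 2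
  · exact gen_mem_Inv 3
  · exact gen_mem_Inv 4

theorem inv1 (g : P6) (hg : g ∈ stab phi 0) (j : Fin 416) : lab1 (phi g j).1 = lab1 j.1 :=
  H_le_Inv (H_eq ▸ hg) j

theorem trans1 (j : Fin 416) : ∃ g : P6, phi g 0 = j := okK.transitive j

/-- connectedness of the classes of a two point stabiliser -/
theorem conn2 (D : L2) (hp : D.p < 416) (hk : D.k ≤ 7) (hD : ∀ j : Fin 416, D.Chk j.1) :
    ∀ i j : Fin 416, D.lab i.1 < D.k → D.lab i.1 = D.lab j.1 →
      ∃ g ∈ stab phi 0 ⊓ stab phi ⟨D.p, hp⟩, phi g i = j := by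
  apply conn_of_tree' phi (stab phi 0 ⊓ stab phi ⟨D.p, hp⟩) (fun j => D.lab j.1)
    (fun j => D.dep j.1) (fun c => if h : D.rt.getD c 0 < 416 then ⟨D.rt.getD c 0, h⟩ else 0)
  intro j hj
  rcases hD j with ⟨h7, _⟩ | ⟨_, _, h | ⟨h1, h2, h3, h4, h5, h6, h7⟩⟩
  · exfalso
    have hj' : D.lab j.1 < D.k := hj
    omega
  · left
    apply Fin.ext
    have : D.rt.getD (D.lab j.1) 0 < 416 := by rw [h]; exact j.2
    simp only [dif_pos this]
    exact h.symm
  · right
    refine ⟨⟨D.par j.1, h4⟩, elt (D.wd j.1),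
      Subgroup.mem_inf.2 ⟨elt_mem _ h1 0 h2, elt_mem _ h1 ⟨D.p, hp⟩ h3⟩, ?_, h6, h7⟩
    apply Fin.ext
    rw [phi_elt _ h1]
    exact h5

section transfer

variable {Γ : Type*} [Group Γ] (e : Γ ≃* P6)

/-- the action of an isomorphic group -/
noncomputable def ph : Γ →* Equiv.Perm (Fin 416) := phi.comp e.toMonoidHom

theorem ph_apply (g : Γ) : ph e g = phi (e g) := rfl

theorem ph_symm (g : P6) : ph e (e.symm g) = phi g := by
  rw [ph_apply, MulEquiv.apply_symm_apply]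

theorem mem_stab_ph (g : Γ) (p : Fin 416) : g ∈ stab (ph e) p ↔ e g ∈ stab phi p := by
  rw [mem_stab, mem_stab, ph_apply]

theorem symm_mem_stab (g : P6) (p : Fin 416) (h : g ∈ stab phi p) : e.symm g ∈ stab (ph e) p := by
  rw [mem_stab_ph, MulEquiv.apply_symm_apply]
  exact h

theorem max1 (M : Subgroup Γ) (hM : stab (ph e) 0 ≤ M) : M ≤ stab (ph e) 0 ∨ M = ⊤ := by
  have := max_stab (ph e) ⊤ 0 (fun j => lab1 j.1) 3 ?_ ?_ (fun c => [1, 315, 100].getD c 0) sz1 har1
    M (by rw [top_inf_eq]; exact hM) le_top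
  · rw [top_inf_eq, top_le_iff] at this
    exact this
  · intro j
    constructor
    · intro _
      obtain ⟨g, hg⟩ := trans1 j
      exact ⟨e.symm g, Subgroup.mem_top _, by rw [ph_symm]; exact hg⟩
    · intro _
      exact (chk1 j).1
  · intro i j _ hij
    obtain ⟨g, hg, h⟩ := conn1 i j hij
    exact ⟨e.symm g, by rw [top_inf_eq]; exact symm_mem_stab e g 0 hg, by rw [ph_symm]; exact h⟩

theorem max2 (D : L2) (hp : D.p < 416) (hk : D.k ≤ 7) (hD : ∀ j : Fin 416, D.Chk j.1)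
    (hc : lab1 D.p = D.c)
    (hsz : ∀ c < D.k, (Finset.univ.filter (fun j : Fin 416 => D.lab j.1 = c)).card = D.sz.getD c 0)
    (har : ∀ C ∈ (Finset.range D.k).powerset, D.lab D.p ∈ C →
      (∑ c ∈ C, D.sz.getD c 0) ∣ (∑ c ∈ Finset.range D.k, D.sz.getD c 0) →
        (∑ c ∈ C, D.sz.getD c 0) = 1 ∨
          (∑ c ∈ C, D.sz.getD c 0) = ∑ c ∈ Finset.range D.k, D.sz.getD c 0)
    (p : Fin 416) (hpc : lab1 p.1 = D.c) (M : Subgroup Γ)
    (h1 : stab (ph e) 0 ⊓ stab (ph e) p ≤ M) (h2 : M ≤ stab (ph e) 0) :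
    M ≤ stab (ph e) 0 ⊓ stab (ph e) p ∨ stab (ph e) 0 ≤ M := by
  obtain ⟨g, hg, hgp⟩ := conn1 ⟨D.p, hp⟩ p (hc.trans hpc.symm)
  have hgp' : ph e (e.symm g) ⟨D.p, hp⟩ = p := by rw [ph_symm]; exact hgp
  rw [← hgp'] at h1 ⊢
  refine max_conj (ph e) (stab (ph e) 0) ⟨D.p, hp⟩ ?_ (e.symm g) (symm_mem_stab e g 0 hg) M h1 h2
  apply max_stab (ph e) (stab (ph e) 0) ⟨D.p, hp⟩ (fun j => D.lab j.1) D.k ?_ ?_
    (fun c => D.sz.getD c 0) hsz har
  · intro j
    constructor
    · intro hj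
      have hj' : D.lab j.1 < D.k := hj
      have hl : lab1 j.1 = D.c := by
        rcases hD j with ⟨h7, _⟩ | ⟨_, h, _⟩
        · omega
        · exact h
      obtain ⟨s, hs, h⟩ := conn1 ⟨D.p, hp⟩ j (hc.trans hl.symm)
      exact ⟨e.symm s, symm_mem_stab e s 0 hs, by rw [ph_symm]; exact h⟩
    · rintro ⟨s, hs, rfl⟩
      have h3 := inv1 (e s) ((mem_stab_ph e s 0).1 hs) ⟨D.p, hp⟩
      rcases hD (ph e s ⟨D.p, hp⟩) with ⟨_, h⟩ | ⟨h, _⟩
      · exact absurd (h3.trans hc) h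
      · exact h
  · intro i j hi hij
    obtain ⟨s, hs, h⟩ := conn2 D hp hk hD i j hi hij
    obtain ⟨hs1, hs2⟩ := Subgroup.mem_inf.1 hs
    exact ⟨e.symm s, Subgroup.mem_inf.2 ⟨symm_mem_stab e s 0 hs1, symm_mem_stab e s _ hs2⟩,
      by rw [ph_symm]; exact h⟩

theorem moves (p : Fin 416) (hp : p ≠ 0) : ∃ h ∈ stab (ph e) 0, ph e h p ≠ p := by
  by_contra hcon
  push Not at hcon
  have key : ∀ j : Fin 416, lab1 j.1 = lab1 p.1 → j = p := by
    intro j hj
    obtain ⟨g, hg, h⟩ := conn1 p j hj.symm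
    have := hcon (e.symm g) (symm_mem_stab e g 0 hg)
    rw [ph_symm, h] at this
    exact this
  have h3 := (chk1 p).1
  have a0 : lab1 (0 : Fin 416).1 = 0 := by decide +kernel
  have a1 : lab1 (1 : Fin 416).1 = 1 := by decide +kernel
  have a2 : lab1 (2 : Fin 416).1 = 1 := by decide +kernel
  have a3 : lab1 (38 : Fin 416).1 = 2 := by decide +kernel
  have a4 : lab1 (57 : Fin 416).1 = 2 := by decide +kernel
  have hl : lab1 p.1 = 0 ∨ lab1 p.1 = 1 ∨ lab1 p.1 = 2 := by omega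
  rcases hl with hl | hl | hl
  · exact hp (key 0 (a0.trans hl.symm)).symm
  · have b1 := key 1 (a1.trans hl.symm)
    have b2 := key 2 (a2.trans hl.symm)
    exact absurd (b1.trans b2.symm) (by decide)
  · have b1 := key 38 (a3.trans hl.symm)
    have b2 := key 57 (a4.trans hl.symm)
    exact absurd (b1.trans b2.symm) (by decide)

theorem main : IsCoatom (stab (ph e) 0) ∧ ∀ x : Γ, x ∉ stab (ph e) 0 →
    IsCoatom ((stab (ph e) 0 ⊓ (stab (ph e) 0).map (MulAut.conj x).toMonoidHom).subgroupOf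
      (stab (ph e) 0)) := by
  apply ext_prim (ph e) 0
  · obtain ⟨g, hg⟩ := trans1 1
    exact ⟨e.symm g, by rw [ph_symm, hg]; decide⟩
  · exact max1 e
  · intro p hp
    refine ⟨moves e p hp, ?_⟩
    have h3 := (chk1 p).1
    have hl : lab1 p.1 = 0 ∨ lab1 p.1 = 1 ∨ lab1 p.1 = 2 := by omega
    rcases hl with hl | hl | hl
    · exfalso
      obtain ⟨g, hg, h⟩ := conn1 0 p (by rw [hl]; decide +kernel)
      rw [(mem_stab phi).1 hg] at h
      exact hp h.symm
    · exact max2 e D1 (by decide) (by decide) chkD1 (by decide +kernel) szD1 harD1 p hl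
    · exact max2 e D2 (by decide) (by decide) chkD2 (by decide +kernel) szD2 harD2 p hl

end transfer

end Cfsg.Agent.Lib.Helper62EPb
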