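import Cfsg.Agent.Lib.Helper62EPb
import Cfsg.Agent.Lib.Helper64J2P315

set_option autoImplicit false
set_option maxRecDepth 100000

/-! The subgroup `⟨a, …, e⟩` of `G2(4)` is the Hall-Janko group on 315 points. -/

namespace Cfsg.Agent.Lib.Helper62EPc

open Cfsg.Agent.Lib.Helper35TC Cfsg.Agent.Lib.Helper62SuzH Cfsg.Agent.Lib.Helper34J2Perm

/-- the value of a word and of its inverse as functions, for involutory letters -/
def evF {α : Type} (f : α → ℕ → ℕ) : WExp α → (ℕ → ℕ) × (ℕ → ℕ)
  | .of a => (f a, f a)
  | .mul x y => (fun i => (evF f x).1 ((evF f y).1 i), fun i => (evF f y).2 ((evF f x).2 i))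
  | .inv x => ((evF f x).2, (evF f x).1)
  | .pow x n => ((evF f x).1^[n], (evF f x).2^[n])

theorem pow_apply_val {n : ℕ} (g : Equiv.Perm (Fin n)) (F : ℕ → ℕ) (h : ∀ i, (g i).val = F i.val) :
    ∀ (m : ℕ) (i : Fin n), ((g ^ m) i).val = F^[m] i.val
  | 0, i => rfl
  | m + 1, i => by
    rw [pow_succ, Equiv.Perm.mul_apply, pow_apply_val g F h m, h, Function.iterate_succ_apply]

theorem evalIn_val {α : Type} {n : ℕ} (f : α → ℕ → ℕ) (u : α → Equiv.Perm (Fin n))
    (h1 : ∀ x i, (u x i).val = f x i.val) (h2 : ∀ x, u x * u x = 1) (e : WExp α) :
    (∀ i, ((e.evalIn u) i).val = (evF f e).1 i.val) ∧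
      (∀ i, ((e.evalIn u)⁻¹ i).val = (evF f e).2 i.val) := by
  induction e with
  | of a =>
    refine ⟨h1 a, ?_⟩
    intro i
    show ((u a)⁻¹ i).val = _
    rw [inv_eq_of_mul_eq_one_left (h2 a)]
    exact h1 a i
  | mul x y hx hy =>
    constructor
    · intro i
      show ((x.evalIn u * y.evalIn u) i).val = (evF f x).1 ((evF f y).1 i.val)
      rw [Equiv.Perm.mul_apply, hx.1, hy.1]
    · intro i
      show ((x.evalIn u * y.evalIn u)⁻¹ i).val = (evF f y).2 ((evF f x).2 i.val)
      rw [mul_inv_rev, Equiv.Perm.mul_apply, hy.2, hx.2]
  | inv x hx =>
    constructor
    · exact hx.2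
    · intro i
      show (((x.evalIn u)⁻¹)⁻¹ i).val = _
      rw [inv_inv]
      exact hx.1 i
  | pow x m hx =>
    constructor
    · intro i
      exact pow_apply_val _ _ hx.1 m i
    · intro i
      show ((x.evalIn u ^ m)⁻¹ i).val = _
      rw [← inv_pow]
      exact pow_apply_val _ _ hx.2 m i

abbrev Gen5 := Cfsg.Agent.Lib.Helper35Suzc2.Gen

/-- the group presented on `a, …, e` -/
abbrev P5 := Cfsg.Agent.Lib.Helper35Suzc2.K.Grp

/-- tables of the five involutions -/
def TA : Gen5 → ℕ
  | .a => 7782818112491325461717772170646042223338866024510310594790410704263192235661500704983714666924308737399558226346347829792036697402356002794304857315324783723912852140600352429478439304986156571346016561807169493579666389866478463444231722067074107314651135456903974783179531978037749721396313646704872977344549174606322788849871082742017706556594397053488801991264362837813127957172985580698495677159635867028264793598481241506761007365150127789221995515502548159513112267967140641938354236968892548469138507785011233906689581636449648199563920889361285028665015306452844419225265083342734971543032879015445219323597977592780008772526450049120396685883045687975002124578520013559618161664117909981902370988065423821470417427388861704403185612240561516916805896381854602793066048212375690857562163421879799560541938777829124470089027019376707775944583709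
  | .b => 10742787939266689068464430652813008342943958041610160728099098126118129924144765877905993743581108221116354115424295521102323278323719488477871505487625294736051094784811283931832195556130746835121638538192103530589814225624976299554590286650794347458661492784123204258251374973339604035014053116282260385608513152660522396513392116843569928567127359313171127077117179829740317802611233099970799949393385385052133752744286790502326476519646765781846937379521291522979376652236114931899579133404244507734467195568607869923430672246003938547173623728027155203327727674132968153393257816588501283535493013262847793928881225357319060860726806627505365865483829386409382494723578727096729587861602613985794749794258974159201117506475918462056996925283075987778908720817797542491939344494521805549752390025525267764873325152872107046217493780920917861356622979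
  | .c => 104180767377623667949650501144690868715366461634015497058872587737438531393675468441588215196827664622203270194337108228451064279493988858250898489912418354996435975750414708385439755775192026184500360449826318253719699130110688262762341893200141132138048688521016446200530591216895529919350455997067975261310705332540070667961979937511900738614026612910333772421920461220585028046333047659998322588910855607646728375352564119342423420020001431835561490115808570420464656343198317112323477767494514881878989428206835769404768996401731707111630869016208212422438533189608163967412836879417486679279677658718015531747556487110915372171595510412347957989465200341235622610256630001560999693603664392798242841072987210300827229612753265384131165429406189509936542390184107576808028277948990985935700784191663668174485084586792325711627109101009265924651311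
  | .d => 13061676574974904005773107757815024428872847180437557021056070717049966295067707546028581730938680989011200768134331182629567870063007149367352961069814530210891488366016497839583911543202100764223695839414057469491532899291407143603003297773940753325147857400879440480566854748745823089343807959719094137801956540951110427981136197957896189281035473459079241712679915024629212781607036575764276771027618146494848880965616806706388032554051700688409552194571024429359852640401106780074878679153629529881633476444612202580486294207770606785804398974731773729754037026546686646104687520566688239102497970941736882400513631732861979252281681447442982664657702988455017579884505472508819650282604833456361605761715191023155091236229089292201159196163111831853912329612869081966484081430829428112404219174579031100477783958510042589164922491202808848914591301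
  | .e => 13063196049945982797413377144512600934957546659149072700043859040804688372129148398611075875078466523845106928300753442828056544628703245290946484613554137191637567683775590574896642106933252960239981446283993606077104454499451659024310648103938834583789268828837860164391901545294874761972394352606112896034058792506066672875825976803801723121057344422386428848721245352638073639145049044057503143131705888845469802762491206751530034377433916049071095753793185266119565071537616084564420249897754989474754700959594319415294092406710443617928743219846959692042068273159460704210089563225426392457875598771331241678526708893112566481632655594856131046417491092436930485986752889730811686791713957064968680536551673449958145441147764349198444066885571934206269537405678311590234878146028165946538515684747857404376356570340977974743737694249049636575129210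

theorem TA_ok : ∀ (x : Gen5) (i : Fin 315), tb (TA x) i < 315 ∧ tb (TA x) (tb (TA x) i) = i := by
  intro x; cases x <;> decide +kernel

/-- the five involutions -/
def q5 (x : Gen5) : Equiv.Perm (Fin 315) where
  toFun i := ⟨tb (TA x) i, (TA_ok x i).1⟩
  invFun i := ⟨tb (TA x) i, (TA_ok x i).1⟩
  left_inv i := Fin.ext (TA_ok x i).2
  right_inv i := Fin.ext (TA_ok x i).2

theorem q5_apply (x : Gen5) (i : Fin 315) : (q5 x i).val = tb (TA x) i.val := rfl

theorem q5_sq (x : Gen5) : q5 x * q5 x = 1 := by
  ext i
  rw [Equiv.Perm.mul_apply, q5_apply, q5_apply]
  exact (TA_ok x i).2

theorem rel_chk : ∀ e ∈ Cfsg.Agent.Lib.Helper35Suzc2.K.relExps, ∀ i : Fin 315,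
    (evF (fun x => tb (TA x)) e).1 i.val = i.val := by decide +kernel

theorem hrel : ∀ e ∈ Cfsg.Agent.Lib.Helper35Suzc2.K.relExps, e.evalIn q5 = 1 := by
  intro e he
  ext i
  rw [(evalIn_val (fun x => tb (TA x)) q5 q5_apply q5_sq e).1 i, rel_chk e he i]
  rfl

/-- the action of a product of letters -/
def wk {α : Type} (f : α → ℕ → ℕ) (w : List α) (i : ℕ) : ℕ := w.foldr (fun k acc => f k acc) i

theorem prod_val {α : Type} {n : ℕ} (f : α → ℕ → ℕ) (u : α → Equiv.Perm (Fin n))
    (h1 : ∀ x i, (u x i).val = f x i.val) : ∀ (w : List α) (i : Fin n),
    ((w.map u).prod i).val = wk f w i.val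
  | [], i => rfl
  | k :: w, i => by
    rw [List.map_cons, List.prod_cons, Equiv.Perm.mul_apply, h1, prod_val f u h1 w]
    rfl

/-- the five involutions as words in the four reflections -/
def wA : Gen5 → List (Fin 4)
  | .a => [0]
  | .b => [3]
  | .c => [1, 2, 1]
  | .d => [2, 1, 3, 0, 2, 3, 2, 0, 0, 1, 3, 2, 0, 3, 0, 1, 3, 2, 0, 3, 0, 1, 3, 2, 0, 3, 0, 1, 3, 2, 0, 3, 0, 1, 3, 2, 0, 3, 0, 2, 3, 2, 0, 3, 1, 2]
  | .e => [1, 0, 3, 0, 2, 3, 2, 0, 2, 3, 2, 0, 1, 3, 2, 0, 3, 0, 1, 3, 2, 0, 3, 0, 1, 3, 2, 0, 3, 0, 1, 3, 2, 0, 3, 0, 1, 3, 2, 0, 3, 2, 3, 2, 0, 2, 3, 2, 0, 3, 0, 1]

theorem wA_chk : ∀ (x : Gen5) (i : Fin 315), wk (fun k => tb (TT k)) (wA x) i.val = tb (TA x) i.val := by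
  intro x; cases x <;> decide +kernel

theorem q5_eq (x : Gen5) : q5 x = ((wA x).map piGen).prod := by
  ext i
  rw [prod_val (fun k => tb (TT k)) piGen piGen_apply, wA_chk]
  rfl

theorem q5_mem (x : Gen5) : q5 x ∈ P315 := by
  rw [q5_eq]
  apply Subgroup.list_prod_mem
  intro y hy
  obtain ⟨k, _, rfl⟩ := List.mem_map.1 hy
  exact Subgroup.subset_closure ⟨k, rfl⟩

/-- the four reflections as words in the five involutions -/
def wB : Fin 4 → List Gen5 := ![[.a], [.b, .c, .d, .e, .a, .b, .c, .d, .c, .a, .b, .a, .b, .a, .c, .d, .c, .b, .a, .e, .d, .c, .b], [.b, .c, .d, .c, .b, .a, .b, .c, .d, .c, .b], [.b]]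

theorem wB_chk : ∀ (k : Fin 4) (i : Fin 315), wk (fun x => tb (TA x)) (wB k) i.val = tb (TT k) i.val := by
  decide +kernel

theorem piGen_eq (k : Fin 4) : piGen k = ((wB k).map q5).prod := by
  ext i
  rw [prod_val (fun x => tb (TA x)) q5 q5_apply, wB_chk]
  rfl

/-- the homomorphism to the permutation group -/
noncomputable def phi5 : P5 →* Equiv.Perm (Fin 315) :=
  Cfsg.Agent.Lib.Helper35Suzc2.ok.homTo q5 hrel

theorem phi5_of (x : Gen5) : phi5 (PresentedGroup.of x) = q5 x :=
  Cfsg.Agent.Lib.Helper35Suzc2.ok.homTo_of q5 hrel x

theorem phi5_range : phi5.range = P315 := by
  apply le_antisymm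
  · apply Pkg.range_le_of_gens
    intro x
    rw [phi5_of]
    exact q5_mem x
  · unfold P315
    rw [Subgroup.closure_le]
    rintro _ ⟨k, rfl⟩
    rw [piGen_eq]
    apply Subgroup.list_prod_mem
    intro y hy
    obtain ⟨x, _, rfl⟩ := List.mem_map.1 hy
    exact ⟨_, phi5_of x⟩

instance : Finite P5 := Cfsg.Agent.Lib.Helper35SuzUb.ub2.1

theorem card_P5 : Nat.card P5 ≤ 604800 := Cfsg.Agent.Lib.Helper35SuzUb.ub2.2

/-- the presented group is the permutation group -/
noncomputable def e5 : P5 ≃* P315 := by
  have hs : Function.Surjective phi5.rangeRestrict := phi5.rangeRestrict_surjective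
  have hc : Nat.card P5 ≤ Nat.card phi5.range := by
    rw [phi5_range, Cfsg.Agent.Helper64J2.card_P315]
    exact card_P5
  exact (MulEquiv.ofBijective _ (hs.bijective_of_nat_card_le hc)).trans
    (MulEquiv.subgroupCongr phi5_range)

end Cfsg.Agent.Lib.Helper62EPc
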