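import Cfsg.Agent.Lib.Helper62EPc
import Cfsg.Agent.Lib.Helper62ChevTransport
import Cfsg.Prelude.Def_Spor_J2

set_option autoImplicit false

/-! `G2(4)` acts extremely primitively on the cosets of `J2`: assembly. -/

namespace Cfsg.Agent.Lib.Helper62EPd

open Cfsg.Agent.Lib.Helper35TC Cfsg.Agent.Lib.Helper62Prim Cfsg.Agent.Lib.Helper62SuzH
  Cfsg.Agent.Lib.Helper62EPb Cfsg.Agent.Lib.Helper62EPc Cfsg.Agent.Lib.Helper34J2Perm

theorem card_P6 : Nat.card P6 = 251596800 := by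
  rw [Nat.card_congr e1.toEquiv, Cfsg.Agent.Lib.Helper62G24d.card_Gam]

theorem card_H : Nat.card KK.H = 604800 := by
  have h := Subgroup.card_mul_index KK.H
  rw [okK.index_eq, card_P6] at h
  have h2 : Nat.card KK.H * 416 = 604800 * 416 := h
  exact Nat.eq_of_mul_eq_mul_right (by norm_num) h2

/-- the map from the group presented on `a, …, e` -/
noncomputable def psi5 : P5 →* P6 :=
  Cfsg.Agent.Lib.Helper35Suzc2.ok.homOf KK Cfsg.Agent.Lib.Helper35SuzUb.i1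
    (fun e he => okK.rel_one (Cfsg.Agent.Lib.Helper35SuzUb.hmem1 e he))

theorem psi5_of (x : Gen5) :
    psi5 (PresentedGroup.of x) = PresentedGroup.of (Cfsg.Agent.Lib.Helper35SuzUb.i1 x) :=
  Cfsg.Agent.Lib.Helper35Suzc2.ok.homOf_of _ _ _ x

theorem psi5_range_le : psi5.range ≤ KK.H := by
  apply Pkg.range_le_of_gens
  intro x
  rw [psi5_of]
  refine ⟨FreeGroup.of (Cfsg.Agent.Lib.Helper35SuzUb.i1 x), Subgroup.subset_closure ?_, rfl⟩
  refine ⟨.of (Cfsg.Agent.Lib.Helper35SuzUb.i1 x), ?_, rfl⟩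
  cases x <;> simp [Cfsg.Agent.Lib.Helper35Suzc1.subExps,
    Cfsg.Agent.Lib.Helper35SuzUb.i1]

theorem le_psi5_range : KK.H ≤ psi5.range := by
  apply okK.H_le
  intro e he
  obtain ⟨e', rfl⟩ := hsub_of_list Cfsg.Agent.Lib.Helper35SuzUb.i1 _
    [(.of .a), (.of .b), (.of .c), (.of .d), (.of .e)] (by decide +kernel) e he
  exact ⟨PresentedGroup.mk _ e'.eval, Cfsg.Agent.Lib.Helper35Suzc2.ok.homOf_mk _ _ _ e'⟩

/-- the map onto the subgroup -/
noncomputable def psi5' : P5 →* KK.H := psi5.codRestrict KK.H (fun x => psi5_range_le ⟨x, rfl⟩)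

theorem psi5'_surjective : Function.Surjective psi5' := by
  intro g
  obtain ⟨x, hx⟩ := le_psi5_range g.2
  exact ⟨x, Subtype.ext hx⟩

/-- the presented group is the subgroup -/
noncomputable def e6 : P5 ≃* KK.H :=
  MulEquiv.ofBijective psi5' (psi5'_surjective.bijective_of_nat_card_le
    (by rw [card_H]; exact card_P5))

theorem final {Γ : Type*} [Group Γ] (e : Γ ≃* P6) (hJ : Nonempty (Cfsg.Spor.J2 ≃* P315)) :
    ∃ H : Subgroup Γ, IsCoatom H ∧ Cfsg.Spor.IsoJ2 H ∧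
      ∀ x : Γ, x ∉ H → IsCoatom ((H ⊓ H.map (MulAut.conj x).toMonoidHom).subgroupOf H) := by
  obtain ⟨h1, h2⟩ := main e
  refine ⟨stab (ph e) 0, h1, ?_, h2⟩
  obtain ⟨b⟩ := hJ
  have hmap : (stab (ph e) 0).map e.toMonoidHom = KK.H := by
    rw [H_eq]
    ext g
    constructor
    · rintro ⟨y, hy, rfl⟩
      exact (mem_stab_ph e y 0).1 hy
    · intro hg
      exact ⟨e.symm g, symm_mem_stab e g 0 hg, e.apply_symm_apply g⟩
  exact ⟨(((e.subgroupMap (stab (ph e) 0)).trans (MulEquiv.subgroupCongr hmap)).trans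
    e6.symm).trans (e5.trans b.symm)⟩

theorem final' {F : Type*} [Field F] [Fintype F] (hF : Fintype.card F = 4)
    (hJ : Nonempty (Cfsg.Spor.J2 ≃* P315)) :
    ∃ H : Subgroup (Cfsg.Lie.chevG2.group F), IsCoatom H ∧ Cfsg.Spor.IsoJ2 H ∧
      ∀ x : Cfsg.Lie.chevG2.group F, x ∉ H →
        IsCoatom ((H ⊓ H.map (MulAut.conj x).toMonoidHom).subgroupOf H) :=
  final (((Cfsg.Agent.Lib.Helper62ChevTransport.groupEquiv Cfsg.Lie.chevG2
    (Cfsg.Agent.Lib.Helper62F4.equivF4 hF)).trans Cfsg.Agent.Lib.Helper62G24b.iso.symm).trans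
      e1.symm) hJ

end Cfsg.Agent.Lib.Helper62EPd
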