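import Mathlib
import Cfsg.Agent.Lib.Helper62Aff
import Cfsg.Agent.Lib.Helper62Mat4

set_option autoImplicit false

/-!
The Frobenius group `K^+ : C_n` for a finite field `K` and `n ∣ |K| - 1`, and its set of
element orders.
-/

namespace Cfsg.Agent.Lib.Helper62FrobField

open Cfsg.Agent.Lib.Helper62Aff Cfsg.Agent.Lib.Helper62Mat4

variable (K : Type*) [Field K]

/-- the group of `n`-th roots of unity -/
def Cn (n : ℕ) : Subgroup Kˣ where
  carrier := {u | u ^ n = 1}
  mul_mem' := by
    intro a b ha hb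
    simp only [Set.mem_ofPred_eq] at ha hb ⊢
    rw [mul_pow, ha, hb, one_mul]
  one_mem' := by simp
  inv_mem' := by
    intro a ha
    simp only [Set.mem_ofPred_eq] at ha ⊢
    rw [inv_pow, ha, inv_one]

variable {K}

theorem free (n : ℕ) (c : Cn K n) (hc : c ≠ 1) (x : K) (hx : c • x = x) : x = 0 := by
  have h1 : ((c : Kˣ) : K) * x = x := hx
  have h2 : (((c : Kˣ) : K) - 1) * x = 0 := by rw [sub_mul, h1, one_mul, sub_self]
  rcases mul_eq_zero.mp h2 with h | h
  · exfalso
    apply hc
    apply Subtype.ext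
    apply Units.ext
    simpa using sub_eq_zero.mp h
  · exact h

theorem spec_frob [Fintype K] (p : ℕ) [Fact p.Prime] [CharP K p] (n : ℕ)
    (hn : n ∣ Fintype.card K - 1) :
    Set.range (orderOf : Aff (Cn K n) K → ℕ) = {m : ℕ | m ∣ p ∨ m ∣ n} := by
  have hcard : 1 < Fintype.card K := Fintype.one_lt_card
  have hn0 : n ≠ 0 := by
    rintro rfl
    rw [zero_dvd_iff] at hn
    omega
  have hpK : ∀ w : K, p • w = 0 := by
    intro w
    rw [nsmul_eq_mul, CharP.cast_eq_zero, zero_mul]
  apply Set.Subset.antisymm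
  · rintro _ ⟨x, rfl⟩
    by_cases hc : x.c = 1
    · left
      have hx : x ^ (1 * p) = 1 := Aff.pow_mul_eq_one x 1 p (by rw [hc, pow_one]) hpK
      rw [one_mul] at hx
      exact orderOf_dvd_of_pow_eq_one hx
    · right
      rw [Aff.orderOf_eq_of_free x (free n x.c hc)]
      apply orderOf_dvd_of_pow_eq_one
      apply Subtype.ext
      exact x.c.2
  · have mp : p ∈ Set.range (orderOf : Aff (Cn K n) K → ℕ) := by
      refine ⟨⟨1, 1⟩, ?_⟩
      apply orderOf_eq_prime
      · have := Aff.pow_mul_eq_one (⟨1, 1⟩ : Aff (Cn K n) K) 1 p (by simp) hpK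
        rwa [one_mul] at this
      · intro e
        exact one_ne_zero (congrArg Aff.v e)
    have mn : n ∈ Set.range (orderOf : Aff (Cn K n) K → ℕ) := by
      obtain ⟨g, hg⟩ := IsCyclic.exists_generator (α := Kˣ)
      have hog : orderOf g = Fintype.card K - 1 := by
        classical
        rw [orderOf_eq_card_of_forall_mem_zpowers hg, Nat.card_eq_fintype_card, Fintype.card_units]
      obtain ⟨k, hk⟩ := hn
      have hk0 : k ≠ 0 := by
        rintro rfl
        omega
      have hord : orderOf (g ^ k) = n := by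
        rw [orderOf_pow_of_dvd hk0 (by rw [hog, hk]; exact Dvd.intro_left n rfl), hog, hk]
        exact Nat.mul_div_cancel _ (Nat.pos_of_ne_zero hk0)
      have hmem : g ^ k ∈ Cn K n := by
        show (g ^ k) ^ n = 1
        rw [← hord, pow_orderOf_eq_one]
      refine ⟨Aff.inr ⟨g ^ k, hmem⟩, ?_⟩
      rw [Aff.orderOf_inr, Subgroup.orderOf_mk, hord]
    rintro m (hm | hm)
    · exact dvd_mem_spec mp hm (Nat.Prime.ne_zero Fact.out)
    · exact dvd_mem_spec mn hm hn0

theorem solvable_frob (n : ℕ) : Group.IsSolvable (Aff (Cn K n) K) := by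
  apply aff_solvable
  infer_instance

end Cfsg.Agent.Lib.Helper62FrobField
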