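import Mathlib

set_option autoImplicit false

/-! Abstract lemmas for centralisers of elements of prime order generating a Sylow subgroup,
commutants of cyclic matrices, Frobenius on polynomial expressions, invariance of an algebra
structure given by its adjoint matrices. -/

namespace Cfsg.Agent.Lib.Helper62G2a

open Polynomial

/-- if `p` divides the group order exactly once and `x0` has order `p`, then an element of order
`p * r` yields an element of order `r` commuting with `x0` -/
theorem exists_commuting {G : Type*} [Group G] [Finite G] (p : ℕ) [Fact p.Prime]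
    (hp : (Nat.card G).factorization p = 1) (x0 : G) (hx0 : orderOf x0 = p) (g : G) (r : ℕ)
    (hr : 0 < r) (hg : orderOf g = p * r) : ∃ u : G, orderOf u = r ∧ Commute u x0 := by
  have hp0 : 0 < p := (Fact.out : p.Prime).pos
  have key : ∀ y : G, orderOf y = p → ∃ S : Sylow p G, (S : Subgroup G) = Subgroup.zpowers y := by
    intro y hy
    have h1 : IsPGroup p (Subgroup.zpowers y) :=
      IsPGroup.of_card (n := 1) (by rw [Nat.card_zpowers, hy, pow_one])
    obtain ⟨S, hS⟩ := h1.exists_le_sylow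
    refine ⟨S, ?_⟩
    symm
    apply Subgroup.eq_of_le_of_card_ge hS
    rw [Sylow.card_eq_multiplicity, hp, pow_one, Nat.card_zpowers, hy]
  have hx : orderOf (g ^ r) = p := by
    rw [orderOf_pow_of_dvd hr.ne' (by rw [hg]; exact Dvd.intro_left p rfl), hg,
      Nat.mul_div_cancel _ hr]
  obtain ⟨S, hS⟩ := key (g ^ r) hx
  obtain ⟨S0, hS0⟩ := key x0 hx0
  obtain ⟨h, hh⟩ := MulAction.exists_smul_eq G S S0
  have hmem : h * g ^ r * h⁻¹ ∈ Subgroup.zpowers x0 := by
    rw [← hS0, ← hh, Sylow.smul_def, Sylow.pointwise_smul_def]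
    have : g ^ r ∈ (S : Subgroup G) := by rw [hS]; exact Subgroup.mem_zpowers _
    exact Subgroup.smul_mem_pointwise_smul _ (MulAut.conj h) _ this
  set g' := h * g * h⁻¹ with hg'
  have hpow : g' ^ r = h * g ^ r * h⁻¹ := by rw [hg', conj_pow]
  have hog' : orderOf g' = p * r := by
    rw [← hg]
    exact (MulAut.conj h).orderOf_eq g
  have hox' : orderOf (g' ^ r) = p := by
    rw [hpow, ← hx]
    exact (MulAut.conj h).orderOf_eq (g ^ r)
  have hz : Subgroup.zpowers (g' ^ r) = Subgroup.zpowers x0 := by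
    apply Subgroup.eq_of_le_of_card_ge
    · rw [Subgroup.zpowers_le, hpow]; exact hmem
    · rw [Nat.card_zpowers, Nat.card_zpowers, hox', hx0]
  have hx0mem : x0 ∈ Subgroup.zpowers (g' ^ r) := by rw [hz]; exact Subgroup.mem_zpowers _
  obtain ⟨k, hk⟩ := Subgroup.mem_zpowers_iff.1 hx0mem
  refine ⟨g' ^ p, ?_, ?_⟩
  · rw [orderOf_pow_of_dvd hp0.ne' (by rw [hog']; exact Dvd.intro r rfl), hog',
      Nat.mul_div_cancel_left _ hp0]
  · rw [← hk]
    exact (((Commute.refl g').pow_pow p r).zpow_right k)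

section frob

variable {A : Type*} [Ring A] [Algebra (ZMod 3) A]

theorem aeval_cube (B : A) (q : (ZMod 3)[X]) : (aeval B q) ^ 3 = aeval (B ^ 3) q := by
  have : Fact (Nat.Prime 3) := ⟨by norm_num⟩
  rw [← map_pow, ← ZMod.expand_card, Polynomial.expand_aeval]

theorem aeval_pow_three_pow (B : A) (q : (ZMod 3)[X]) (k : ℕ) :
    (aeval B q) ^ (3 ^ k) = aeval (B ^ (3 ^ k)) q := by
  induction k with
  | zero => simp
  | succ k ih => rw [pow_succ, pow_mul, ih, aeval_cube, ← pow_mul]

/-- if `B ^ (3 ^ k) = B`, `C` is a polynomial in `B`, and `C ^ r = 1` with `r` prime to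
`3 ^ k - 1`, then `C = 1` -/
theorem eq_one_of_pow (B : A) (q : (ZMod 3)[X]) (k : ℕ) (hB : B ^ (3 ^ k) = B) (r : ℕ) (hr : 0 < r)
    (hC : (aeval B q) ^ r = 1) (hcop : Nat.Coprime (3 ^ k - 1) r) : aeval B q = 1 := by
  set C := aeval B q with hCdef
  have h1 : C ^ (3 ^ k) = C := by rw [hCdef, aeval_pow_three_pow, hB]
  have hpos : 0 < 3 ^ k := by positivity
  have h2 : C ^ (3 ^ k - 1) = 1 := by
    have h3 : C ^ (3 ^ k - 1) * C = C := by rw [← pow_succ, Nat.sub_add_cancel hpos, h1]
    have h4 : C * C ^ (r - 1) = 1 := by rw [← pow_succ', Nat.sub_add_cancel hr, hC]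
    calc C ^ (3 ^ k - 1) = C ^ (3 ^ k - 1) * (C * C ^ (r - 1)) := by rw [h4, mul_one]
      _ = C * C ^ (r - 1) := by rw [← mul_assoc, h3]
      _ = 1 := h4
  have := pow_gcd_eq_one.2 ⟨h2, hC⟩
  rwa [hcop.gcd_eq_one, pow_one] at this

end frob

section cyclic

variable {n : ℕ} {K : Type*} [Field K]

/-- a matrix commuting with a matrix having a cyclic vector is a polynomial in it -/
theorem exists_coeffs (X C : Matrix (Fin n) (Fin n) K) (v : Fin n → K)
    (W : Matrix (Fin n) (Fin n) K)
    (hW : (Matrix.of fun r (i : Fin n) => ((X ^ (i : ℕ)).mulVec v) r) * W = 1)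
    (hc : Commute C X) : ∃ a : Fin n → K, C = ∑ i, a i • X ^ (i : ℕ) := by
  set Kr : Matrix (Fin n) (Fin n) K := Matrix.of fun r (i : Fin n) => ((X ^ (i : ℕ)).mulVec v) r
    with hKr
  set a : Fin n → K := W.mulVec (C.mulVec v) with ha
  set P : Matrix (Fin n) (Fin n) K := ∑ i, a i • X ^ (i : ℕ) with hP
  have hKa : Kr.mulVec a = C.mulVec v := by
    rw [ha, Matrix.mulVec_mulVec, hW, Matrix.one_mulVec]
  have hPv : P.mulVec v = Kr.mulVec a := by
    funext r
    rw [hP, Matrix.sum_mulVec]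
    simp only [Finset.sum_apply, Matrix.smul_mulVec, Pi.smul_apply, smul_eq_mul, Matrix.mulVec,
      dotProduct, hKr, Matrix.of_apply]
    apply Finset.sum_congr rfl
    intro i _
    rw [mul_comm]
  have hPX : ∀ j : ℕ, Commute P (X ^ j) := by
    intro j
    rw [hP]
    apply Commute.sum_left
    intro i _
    exact ((Commute.refl X).pow_pow _ _).smul_left _
  have hcol : C * Kr = P * Kr := by
    ext r j
    have h1 : (C * Kr) r j = (C.mulVec ((X ^ (j : ℕ)).mulVec v)) r := by
      simp [Matrix.mul_apply, Matrix.mulVec, dotProduct, hKr]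
    have h2 : (P * Kr) r j = (P.mulVec ((X ^ (j : ℕ)).mulVec v)) r := by
      simp [Matrix.mul_apply, Matrix.mulVec, dotProduct, hKr]
    rw [h1, h2, Matrix.mulVec_mulVec, Matrix.mulVec_mulVec, (hc.pow_right _).eq, (hPX _).eq,
      ← Matrix.mulVec_mulVec, ← Matrix.mulVec_mulVec, hPv, hKa]
  refine ⟨a, ?_⟩
  calc C = C * (Kr * W) := by rw [hW, mul_one]
    _ = P * (Kr * W) := by rw [← mul_assoc, hcol, mul_assoc]
    _ = P := by rw [hW, mul_one]

theorem sum_eq_aeval (X : Matrix (Fin n) (Fin n) K) (a : Fin n → K) :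
    ∑ i, a i • X ^ (i : ℕ) = aeval X (∑ i, Polynomial.C (a i) * Polynomial.X ^ (i : ℕ)) := by
  rw [map_sum]
  apply Finset.sum_congr rfl
  intro i _
  rw [map_mul, aeval_C, map_pow, aeval_X, Algebra.smul_def]

end cyclic

section inv

variable {n : ℕ} {K : Type*} [CommRing K]

/-- `A` preserves the algebra structure with adjoint matrices `Ad` -/
def Inv (Ad : Fin n → Matrix (Fin n) (Fin n) K) (A : Matrix (Fin n) (Fin n) K) : Prop :=
  ∀ i, A * Ad i = (∑ a, A a i • Ad a) * A

instance [DecidableEq K] (Ad : Fin n → Matrix (Fin n) (Fin n) K) (A : Matrix (Fin n) (Fin n) K) :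
    Decidable (Inv Ad A) := by unfold Inv; infer_instance

theorem Inv.one (Ad : Fin n → Matrix (Fin n) (Fin n) K) : Inv Ad 1 := by
  intro i
  simp [Matrix.one_apply, ite_smul]

theorem Inv.mul {Ad : Fin n → Matrix (Fin n) (Fin n) K} {A B : Matrix (Fin n) (Fin n) K}
    (hA : Inv Ad A) (hB : Inv Ad B) : Inv Ad (A * B) := by
  intro i
  calc A * B * Ad i = A * ((∑ a, B a i • Ad a) * B) := by rw [mul_assoc, hB i]
    _ = (∑ a, B a i • (A * Ad a)) * B := by
      rw [← mul_assoc, Finset.mul_sum]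
      simp only [mul_smul_comm]
    _ = (∑ a, B a i • ((∑ c, A c a • Ad c) * A)) * B := by
      simp only [hA _]
    _ = (∑ c, (A * B) c i • Ad c) * (A * B) := by
      rw [← mul_assoc]
      congr 1
      simp only [Matrix.mul_apply, Finset.sum_smul, Finset.sum_mul, Finset.smul_sum,
        smul_mul_assoc, smul_smul]
      rw [Finset.sum_comm]
      apply Finset.sum_congr rfl
      intro c _
      apply Finset.sum_congr rfl
      intro a _
      rw [mul_comm]

theorem Inv.pow {Ad : Fin n → Matrix (Fin n) (Fin n) K} {A : Matrix (Fin n) (Fin n) K}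
    (hA : Inv Ad A) (k : ℕ) : Inv Ad (A ^ k) := by
  induction k with
  | zero => simpa using Inv.one Ad
  | succ k ih => rw [pow_succ]; exact ih.mul hA

end inv

end Cfsg.Agent.Lib.Helper62G2a
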