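import Mathlib
import Cfsg.Agent.Lib.Helper62G2b

set_option autoImplicit false

/-! Involutions in the commutants of the elements of order 13 and 7. -/

namespace Cfsg.Agent.Lib.Helper62G2c

open Cfsg.Agent.Lib.Helper62G2a Cfsg.Agent.Lib.Helper62G2b

/-- linear combination of seven matrices -/
def cm (P : Fin 7 → M7) (a0 a1 a2 a3 a4 a5 a6 : ZMod 3) : M7 :=
  Matrix.of fun r c => a0 * P 0 r c + a1 * P 1 r c + a2 * P 2 r c + a3 * P 3 r c + a4 * P 4 r c +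
    a5 * P 5 r c + a6 * P 6 r c

theorem cm_eq (P : Fin 7 → M7) (a : Fin 7 → ZMod 3) :
    ∑ i, a i • P i = cm P (a 0) (a 1) (a 2) (a 3) (a 4) (a 5) (a 6) := by
  ext r c
  simp [cm, Fin.sum_univ_seven, Matrix.sum_apply]

set_option maxHeartbeats 0 in
set_option maxRecDepth 100000 in
theorem invol_x : ∀ a0 a1 a2 a3 a4 a5 a6 : ZMod 3,
    cm xp a0 a1 a2 a3 a4 a5 a6 * cm xp a0 a1 a2 a3 a4 a5 a6 = 1 →
    Inv Ad (cm xp a0 a1 a2 a3 a4 a5 a6) → cm xp a0 a1 a2 a3 a4 a5 a6 = 1 := by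
  decide +kernel

set_option maxHeartbeats 0 in
set_option maxRecDepth 100000 in
theorem invol_y : ∀ a0 a1 a2 a3 a4 a5 a6 : ZMod 3,
    cm yp a0 a1 a2 a3 a4 a5 a6 * cm yp a0 a1 a2 a3 a4 a5 a6 = 1 →
    Inv Ad (cm yp a0 a1 a2 a3 a4 a5 a6) → cm yp a0 a1 a2 a3 a4 a5 a6 = 1 := by
  decide +kernel

end Cfsg.Agent.Lib.Helper62G2c
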