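import Mathlib
import Cfsg.Prelude.Def_ChevG2
import Cfsg.Agent.Lib.Helper62G2c
import Cfsg.Agent.Lib.Helper22ChevBasic
import Cfsg.Agent.S1055

set_option autoImplicit false

/-! The action of `G2(3)` on the seven dimensional ideal of its Lie algebra. -/

namespace Cfsg.Agent.Lib.Helper62G2d

open Cfsg.Lie Cfsg.Agent.Lib.Helper62G2a Cfsg.Agent.Lib.Helper62G2b Cfsg.Agent.Lib.Helper62G2c

/-- coordinates of the ideal first, the others second -/
def toI : Fin 7 ⊕ Fin 7 → Fin 2 ⊕ Fin 12 :=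
  Sum.elim ![.inl 0, .inr 2, .inr 3, .inr 4, .inr 7, .inr 8, .inr 9]
    ![.inl 1, .inr 0, .inr 1, .inr 5, .inr 6, .inr 10, .inr 11]

/-- inverse of `toI` -/
def ofI : Fin 2 ⊕ Fin 12 → Fin 7 ⊕ Fin 7 :=
  Sum.elim ![.inl 0, .inr 0]
    ![.inr 1, .inr 2, .inl 1, .inl 2, .inl 3, .inr 3, .inr 4, .inl 4, .inl 5, .inl 6, .inr 5, .inr 6]

/-- reordering of the coordinates -/
def e : Fin 7 ⊕ Fin 7 ≃ chevG2.Idx where
  toFun := toI
  invFun := ofI
  left_inv := by
    have : ∀ x, ofI (toI x) = x := by decide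
    exact this
  right_inv := by
    have : ∀ x, toI (ofI x) = x := by decide
    exact this

/-- `gen7` with the parameter in `ZMod 3` -/
def gen7' (r : Fin 12) (t : ZMod 3) : M7 := gen7 r t

set_option maxHeartbeats 0 in
set_option maxRecDepth 100000 in
theorem gen_block : ∀ (r : Fin 12) (t : ZMod 3),
    (chevG2.xMat (ZMod 3) r t).submatrix (fun a => e (.inl a)) (fun b => e (.inl b)) = gen7' r t := by
  decide +kernel

set_option maxHeartbeats 0 in
set_option maxRecDepth 100000 in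
theorem gen_tri : ∀ (r : Fin 12) (t : ZMod 3) (a b : Fin 7),
    chevG2.xMat (ZMod 3) r t (e (.inr a)) (e (.inl b)) = 0 := by decide +kernel


/-- the field with three elements -/
abbrev K := ZMod 3

/-- block form of a matrix -/
def blk (M : Matrix chevG2.Idx chevG2.Idx K) : Matrix (Fin 7 ⊕ Fin 7) (Fin 7 ⊕ Fin 7) K :=
  M.submatrix e e

theorem blk_mul (M N : Matrix chevG2.Idx chevG2.Idx K) : blk (M * N) = blk M * blk N :=
  (Matrix.submatrix_mul_equiv M N e e e).symm

theorem blk_one : blk 1 = 1 := Matrix.submatrix_one_equiv e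

/-- the action on the ideal -/
def rho (M : Matrix chevG2.Idx chevG2.Idx K) : M7 := (blk M).toBlocks₁₁

/-- the ideal is invariant -/
def Tri (M : Matrix chevG2.Idx chevG2.Idx K) : Prop := (blk M).toBlocks₂₁ = 0

theorem toBlocks_mul (A B : Matrix (Fin 7 ⊕ Fin 7) (Fin 7 ⊕ Fin 7) K) (hB : B.toBlocks₂₁ = 0) :
    (A * B).toBlocks₁₁ = A.toBlocks₁₁ * B.toBlocks₁₁ := by
  conv_lhs => rw [← Matrix.fromBlocks_toBlocks A, ← Matrix.fromBlocks_toBlocks B,
    Matrix.fromBlocks_multiply, Matrix.toBlocks_fromBlocks₁₁]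
  rw [hB]; simp

theorem toBlocks_mul' (A B : Matrix (Fin 7 ⊕ Fin 7) (Fin 7 ⊕ Fin 7) K) (hA : A.toBlocks₂₁ = 0)
    (hB : B.toBlocks₂₁ = 0) : (A * B).toBlocks₂₁ = 0 := by
  conv_lhs => rw [← Matrix.fromBlocks_toBlocks A, ← Matrix.fromBlocks_toBlocks B,
    Matrix.fromBlocks_multiply, Matrix.toBlocks_fromBlocks₂₁]
  rw [hA, hB]; simp

theorem rho_mul (M N : Matrix chevG2.Idx chevG2.Idx K) (hN : Tri N) :
    rho (M * N) = rho M * rho N := by
  unfold rho
  rw [blk_mul, toBlocks_mul _ _ hN]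

theorem Tri.mul {M N : Matrix chevG2.Idx chevG2.Idx K} (hM : Tri M) (hN : Tri N) : Tri (M * N) := by
  unfold Tri
  rw [blk_mul, toBlocks_mul' _ _ hM hN]

theorem Tri.one : Tri 1 := by
  unfold Tri
  rw [blk_one]
  ext a b
  simp [Matrix.toBlocks₂₁]

theorem rho_one : rho 1 = 1 := by
  unfold rho
  rw [blk_one]
  ext a b
  simp [Matrix.toBlocks₁₁, Matrix.one_apply]

/-- matrices leaving the ideal and its product invariant -/
def SS : Subgroup (GL chevG2.Idx K) where
  carrier := {g | Tri g.1 ∧ Inv Ad (rho g.1)}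
  one_mem' := ⟨Tri.one, by
    show Inv Ad (rho 1)
    rw [rho_one]; exact Inv.one Ad⟩
  mul_mem' := by
    rintro a b ⟨ha1, ha2⟩ ⟨hb1, hb2⟩
    refine ⟨ha1.mul hb1, ?_⟩
    show Inv Ad (rho (a.1 * b.1))
    rw [rho_mul _ _ hb1]
    exact ha2.mul hb2
  inv_mem' := by
    rintro a ⟨ha1, ha2⟩
    have hp : ∀ n : ℕ, Tri (a ^ n).1 ∧ Inv Ad (rho (a ^ n).1) := by
      intro n
      induction n with
      | zero =>
        refine ⟨by simpa using Tri.one, ?_⟩
        show Inv Ad (rho (a ^ 0).1)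
        rw [pow_zero]
        show Inv Ad (rho 1)
        rw [rho_one]; exact Inv.one Ad
      | succ n ih =>
        rw [pow_succ]
        refine ⟨ih.1.mul ha1, ?_⟩
        show Inv Ad (rho ((a ^ n).1 * a.1))
        rw [rho_mul _ _ ha1]
        exact ih.2.mul ha2
    have : a⁻¹ = a ^ (orderOf a - 1) := by
      have hpos : 0 < orderOf a := orderOf_pos a
      rw [inv_eq_iff_mul_eq_one, ← pow_succ', Nat.sub_add_cancel hpos, pow_orderOf_eq_one]
    rw [this]
    exact hp _

theorem rho_xMat (r : Fin 12) (t : K) : rho (chevG2.xMat K r t) = gen7' r t := gen_block r t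

theorem tri_xMat (r : Fin 12) (t : K) : Tri (chevG2.xMat K r t) := by
  ext a b
  exact gen_tri r t a b

theorem group_le : chevG2.group K ≤ SS := by
  unfold ChevalleyDatum.group
  rw [Subgroup.closure_le]
  rintro g ⟨r, t, hg⟩
  refine ⟨?_, ?_⟩
  · rw [show g.1 = chevG2.xMat K r t from hg]; exact tri_xMat r t
  · rw [show g.1 = chevG2.xMat K r t from hg, show rho (chevG2.xMat K r t) = gen7' r t from rho_xMat r t]
    exact gen7_inv r t

/-- the representation on the ideal -/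
def rhoHom : chevG2.group K →* M7 where
  toFun g := rho g.1.1
  map_one' := rho_one
  map_mul' _ b := rho_mul _ _ (group_le b.2).1

theorem rhoHom_inv (g : chevG2.group K) : Inv Ad (rhoHom g) := (group_le g.2).2

theorem std : Cfsg.Agent.Lib.Helper22ChevBasic.Std chevG2 := by
  simp [Cfsg.Agent.Lib.Helper22ChevBasic.Std]

/-- root elements -/
noncomputable def xr (r : Fin 12) (t : K) : chevG2.group K :=
  ⟨Cfsg.Agent.Lib.Helper22ChevBasic.xG std r.1 t,
    Cfsg.Agent.Lib.Helper22ChevBasic.xG_mem_group std r.1 t⟩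

theorem rhoHom_xr (r : Fin 12) (t : K) : rhoHom (xr r t) = gen7' r t := by
  show rho (chevG2.x K r.1 t) = _
  have : chevG2.x K r.1 t = chevG2.xMat K r t := by
    unfold ChevalleyDatum.x
    rw [dif_pos (show r.1 < chevG2.nroots from r.2)]
    rfl
  rw [this, rho_xMat]

end Cfsg.Agent.Lib.Helper62G2d
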