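import Mathlib
import Cfsg.Agent.Lib.Helper62G2d
import Cfsg.Agent.S1059

set_option autoImplicit false

/-! Products of two distinct primes among the element orders of `G2(3)`. -/

namespace Cfsg.Agent.Lib.Helper62G2e

open Cfsg.Lie Cfsg.Agent.Lib.Helper62G2a Cfsg.Agent.Lib.Helper62G2b Cfsg.Agent.Lib.Helper62G2c
  Cfsg.Agent.Lib.Helper62G2d Polynomial

theorem pow_eq (P : Fin 7 → M7) (h0 : P 0 = 1) (hs : ∀ i : Fin 6, P i.castSucc * P 1 = P i.succ) :
    ∀ i : Fin 7, (P 1) ^ (i : ℕ) = P i := by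
  intro i
  induction i using Fin.induction with
  | zero => simp [h0]
  | succ i ih =>
    rw [Fin.val_succ, pow_succ, ← hs i]
    congr 1

/-- a matrix commuting with `P 1` is a polynomial in it -/
theorem cent_aux (P : Fin 7 → M7) (W : M7) (h0 : P 0 = 1)
    (hs : ∀ i : Fin 6, P i.castSucc * P 1 = P i.succ)
    (hW : (Matrix.of fun r i => P i r 3 : M7) * W = 1) (C : M7) (hc : Commute C (P 1)) :
    ∃ a : Fin 7 → K, C = cm P (a 0) (a 1) (a 2) (a 3) (a 4) (a 5) (a 6) ∧
      ∃ q : K[X], C = aeval (P 1) q := by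
  have hp := pow_eq P h0 hs
  have hW' : (Matrix.of fun r (i : Fin 7) => (((P 1) ^ (i : ℕ)).mulVec (Pi.single 3 1)) r) * W = 1 := by
    rw [← hW]
    congr 1
    ext r i
    simp [hp i]
  obtain ⟨a, ha⟩ := exists_coeffs (P 1) C (Pi.single 3 1) W hW' hc
  refine ⟨a, ?_, _, ha.trans (sum_eq_aeval _ _)⟩
  rw [ha, ← cm_eq]
  apply Finset.sum_congr rfl
  intro i _
  rw [hp i]

/-- the element of order 13 -/
noncomputable def x0 : chevG2.group K := xr 0 1 * xr 4 1 * xr 9 1
/-- the element of order 7 -/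
noncomputable def y0 : chevG2.group K := xr 0 1 * xr 1 1 * xr 3 1 * xr 11 1
/-- the element of order 6 -/
noncomputable def z0 : chevG2.group K := xr 0 1 * xr 0 1 * xr 11 1

theorem rho_x0 : rhoHom x0 = xp1 := by
  rw [x0, map_mul, map_mul, rhoHom_xr, rhoHom_xr, rhoHom_xr]
  show g0_1 * g4_1 * g9_1 = xp1
  rw [xa_eq, x_eq]

theorem rho_y0 : rhoHom y0 = yp1 := by
  rw [y0, map_mul, map_mul, map_mul, rhoHom_xr, rhoHom_xr, rhoHom_xr, rhoHom_xr]
  show g0_1 * g1_1 * g3_1 * g11_1 = yp1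
  rw [ya_eq, yb_eq, y_eq]

theorem rho_z0 : rhoHom z0 = z1 := by
  rw [z0, map_mul, map_mul, rhoHom_xr, rhoHom_xr]
  show g0_1 * g0_1 * g11_1 = z1
  rw [za_eq, z_eq]

theorem simple : IsSimpleGroup (chevG2.group K) :=
  (Cfsg.Agent.S1055.result (F := K) ⟨2, by decide, by decide⟩).1

theorem eq_one_of_rho (g : chevG2.group K) (h : rhoHom g = 1) : g = 1 := by
  have := simple
  rcases (inferInstance : (rhoHom.ker).Normal).eq_bot_or_eq_top with hk | hk
  · have : g ∈ rhoHom.ker := h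
    rw [hk] at this
    exact this
  · exfalso
    have : x0 ∈ rhoHom.ker := by rw [hk]; trivial
    have h1 : rhoHom x0 = 1 := this
    rw [rho_x0] at h1
    exact x_ne h1

theorem xp1_pow13 : xp1 ^ 13 = 1 := by
  have h6 : xp1 ^ 6 = xp6 := pow_eq xp xp0_eq xp_succ 6
  calc xp1 ^ 13 = xp1 ^ 6 * xp1 ^ 6 * xp1 := by rw [← pow_add, ← pow_succ]
    _ = 1 := by rw [h6, x12_eq, x13_eq]

theorem yp1_pow7 : yp1 ^ 7 = 1 := by
  have h6 : yp1 ^ 6 = yp6 := pow_eq yp yp0_eq yp_succ 6
  calc yp1 ^ 7 = yp1 ^ 6 * yp1 := by rw [← pow_succ]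
    _ = 1 := by rw [h6, y7_eq]

theorem order_x0 : orderOf x0 = 13 := by
  have : Fact (Nat.Prime 13) := ⟨by norm_num⟩
  apply orderOf_eq_prime
  · apply eq_one_of_rho
    rw [map_pow, rho_x0, xp1_pow13]
  · intro h
    have := rho_x0
    rw [h, map_one] at this
    exact x_ne this.symm

theorem order_y0 : orderOf y0 = 7 := by
  have : Fact (Nat.Prime 7) := ⟨by norm_num⟩
  apply orderOf_eq_prime
  · apply eq_one_of_rho
    rw [map_pow, rho_y0, yp1_pow7]
  · intro h
    have := rho_y0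
    rw [h, map_one] at this
    exact y_ne this.symm

theorem order_z0 : orderOf z0 = 6 := by
  have h2 : z1 ^ 2 = z2 := by rw [pow_two, z2_eq]
  have h3 : z1 ^ 3 = z3 := by rw [pow_succ, h2, z3_eq]
  apply orderOf_eq_of_pow_and_pow_div_prime (by norm_num)
  · apply eq_one_of_rho
    rw [map_pow, rho_z0, show 6 = 3 + 3 from rfl, pow_add, h3, z6_eq]
  · intro p hp hd h
    have hp6 : p = 2 ∨ p = 3 := by
      have : p ∣ 2 * 3 := hd
      rcases (Nat.Prime.dvd_mul hp).1 this with h | h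
      · left; exact (Nat.prime_dvd_prime_iff_eq hp (by norm_num)).1 h
      · right; exact (Nat.prime_dvd_prime_iff_eq hp (by norm_num)).1 h
    have := congrArg rhoHom h
    rw [map_pow, map_one, rho_z0] at this
    rcases hp6 with rfl | rfl
    · rw [show 6 / 2 = 3 from rfl, h3] at this
      exact z3_ne this
    · rw [show 6 / 3 = 2 from rfl, h2] at this
      exact z2_ne this

theorem cent_x (u : chevG2.group K) (hc : Commute u x0) (r : ℕ) (hr : r = 2 ∨ r = 3 ∨ r = 7)
    (hu : u ^ r = 1) : u = 1 := by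
  apply eq_one_of_rho
  have hC : Commute (rhoHom u) (xp 1) := by
    have := hc.map rhoHom
    rwa [rho_x0] at this
  have hCr : (rhoHom u) ^ r = 1 := by rw [← map_pow, hu, map_one]
  obtain ⟨a, ha, q, hq⟩ := cent_aux xp xW xp0_eq xp_succ xW_eq (rhoHom u) hC
  have hB : (xp 1) ^ (3 ^ 3) = xp 1 := by
    show xp1 ^ 27 = xp1
    rw [show 27 = 13 * 2 + 1 from rfl, pow_succ, pow_mul, xp1_pow13, one_pow, one_mul]
  rcases hr with rfl | rfl | rfl
  · have hinv := rhoHom_inv u
    rw [ha] at hinv hCr ⊢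
    rw [pow_two] at hCr
    exact invol_x _ _ _ _ _ _ _ hCr hinv
  · rw [hq] at hCr ⊢
    exact eq_one_of_pow _ q 3 hB 3 (by norm_num) hCr (by norm_num)
  · rw [hq] at hCr ⊢
    exact eq_one_of_pow _ q 3 hB 7 (by norm_num) hCr (by norm_num)

theorem cent_y (u : chevG2.group K) (hc : Commute u y0) (r : ℕ) (hr : r = 2 ∨ r = 3)
    (hu : u ^ r = 1) : u = 1 := by
  apply eq_one_of_rho
  have hC : Commute (rhoHom u) (yp 1) := by
    have := hc.map rhoHom
    rwa [rho_y0] at this
  have hCr : (rhoHom u) ^ r = 1 := by rw [← map_pow, hu, map_one]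
  obtain ⟨a, ha, q, hq⟩ := cent_aux yp yW yp0_eq yp_succ yW_eq (rhoHom u) hC
  have hB : (yp 1) ^ (3 ^ 6) = yp 1 := by
    show yp1 ^ 729 = yp1
    rw [show 729 = 7 * 104 + 1 from rfl, pow_succ, pow_mul, yp1_pow7, one_pow, one_mul]
  rcases hr with rfl | rfl
  · have hinv := rhoHom_inv u
    rw [ha] at hinv hCr ⊢
    rw [pow_two] at hCr
    exact invol_y _ _ _ _ _ _ _ hCr hinv
  · rw [hq] at hCr ⊢
    exact eq_one_of_pow _ q 6 hB 3 (by norm_num) hCr (by norm_num)

theorem card_G : Nat.card (chevG2.group K) = 4245696 := by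
  rw [Cfsg.Agent.S1059.result (F := K) (q := 3) (ZMod.card 3)]; norm_num

theorem fact_eq_one {n p : ℕ} (hp : p.Prime) (hn : n ≠ 0) (h1 : p ∣ n) (h2 : ¬ p ^ 2 ∣ n) :
    n.factorization p = 1 := by
  have a1 : 1 ≤ n.factorization p := (hp.pow_dvd_iff_le_factorization hn).1 (by simpa using h1)
  have a2 : ¬ 2 ≤ n.factorization p := fun h => h2 ((hp.pow_dvd_iff_le_factorization hn).2 h)
  omega

theorem prime_dvd {r : ℕ} (hr : r.Prime) (h : r ∣ 4245696) : r = 2 ∨ r = 3 ∨ r = 7 ∨ r = 13 := by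
  have h1 : r ∣ 2 ^ 6 * 3 ^ 6 * 7 * 13 := by norm_num; exact h
  rcases (Nat.Prime.dvd_mul hr).1 h1 with h2 | h2
  · rcases (Nat.Prime.dvd_mul hr).1 h2 with h3 | h3
    · rcases (Nat.Prime.dvd_mul hr).1 h3 with h4 | h4
      · left; exact (Nat.prime_dvd_prime_iff_eq hr (by norm_num)).1 (hr.dvd_of_dvd_pow h4)
      · right; left; exact (Nat.prime_dvd_prime_iff_eq hr (by norm_num)).1 (hr.dvd_of_dvd_pow h4)
    · right; right; left; exact (Nat.prime_dvd_prime_iff_eq hr (by norm_num)).1 h3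
  · right; right; right; exact (Nat.prime_dvd_prime_iff_eq hr (by norm_num)).1 h2

theorem no13 (g : chevG2.group K) (r : ℕ) (hr : r = 2 ∨ r = 3 ∨ r = 7) (hg : orderOf g = 13 * r) :
    False := by
  have : Fact (Nat.Prime 13) := ⟨by norm_num⟩
  have hr0 : 1 < r := by rcases hr with rfl | rfl | rfl <;> norm_num
  obtain ⟨u, hu, hc⟩ := exists_commuting 13
    (fact_eq_one (by norm_num) (by rw [card_G]; norm_num) (by rw [card_G]; norm_num)
      (by rw [card_G]; norm_num)) x0 order_x0 g r (by omega) hg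
  have := cent_x u hc r hr (by rw [← hu, pow_orderOf_eq_one])
  rw [this, orderOf_one] at hu
  omega

theorem no7 (g : chevG2.group K) (r : ℕ) (hr : r = 2 ∨ r = 3) (hg : orderOf g = 7 * r) :
    False := by
  have : Fact (Nat.Prime 7) := ⟨by norm_num⟩
  have hr0 : 1 < r := by rcases hr with rfl | rfl <;> norm_num
  obtain ⟨u, hu, hc⟩ := exists_commuting 7
    (fact_eq_one (by norm_num) (by rw [card_G]; norm_num) (by rw [card_G]; norm_num)
      (by rw [card_G]; norm_num)) y0 order_y0 g r (by omega) hg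
  have := cent_y u hc r hr (by rw [← hu, pow_orderOf_eq_one])
  rw [this, orderOf_one] at hu
  omega

/-- the products of two distinct primes occurring as element orders of `G2(3)` -/
theorem model_iff (r s : ℕ) (hr : r.Prime) (hs : s.Prime) (hrs : r ≠ s) :
    (∃ x : chevG2.group K, orderOf x = r * s) ↔ r * s = 6 := by
  constructor
  · rintro ⟨x, hx⟩
    have hd : r * s ∣ 4245696 := by rw [← hx, ← card_G]; exact orderOf_dvd_natCard x
    have h1 := prime_dvd hr (Dvd.dvd.trans (Dvd.intro _ rfl) hd)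
    have h2 := prime_dvd hs (Dvd.dvd.trans (Dvd.intro_left _ rfl) hd)
    rcases h1 with rfl | rfl | rfl | rfl <;> rcases h2 with rfl | rfl | rfl | rfl <;>
      first
      | exact absurd rfl hrs
      | rfl
      | exact (no13 x _ (by norm_num) hx).elim
      | exact (no13 x _ (by norm_num) (hx.trans (mul_comm _ _))).elim
      | exact (no7 x _ (by norm_num) hx).elim
      | exact (no7 x _ (by norm_num) (hx.trans (mul_comm _ _))).elim
  · intro h
    exact ⟨z0, by rw [order_z0, h]⟩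

end Cfsg.Agent.Lib.Helper62G2e
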