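import Cfsg.Agent.Lib.Helper62G24d
import Cfsg.Agent.Lib.Helper35SuzFin
import Cfsg.Agent.Lib.Helper35Iso

set_option autoImplicit false
set_option maxRecDepth 100000

/-! The subgroup `⟨a, …, f⟩` of the presented Suzuki group is `G2(4)`. -/

namespace Cfsg.Agent.Lib.Helper62SuzG

open Cfsg.Lie Cfsg.Agent.Lib.Helper62F4 Cfsg.Agent.Lib.Helper62G24a Cfsg.Agent.Lib.Helper62G24b
  Cfsg.Agent.Lib.Helper62G24d Cfsg.Agent.Lib.Helper35TC

/-- packed matrices -/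
abbrev PK := ℕ × ℕ

/-- unpacking -/
def toM (A : PK) : M6 := mk A.1 A.2

/-- packing -/
def pk (M : M6) : PK :=
  (Nat.ofBits fun i : Fin 36 => (M ⟨i.1 / 6, by omega⟩ ⟨i.1 % 6, by omega⟩).a,
   Nat.ofBits fun i : Fin 36 => (M ⟨i.1 / 6, by omega⟩ ⟨i.1 % 6, by omega⟩).b)

theorem toM_pk (M : M6) : toM (pk M) = M := by
  ext a b
  have h : a.1 * 6 + b.1 < 36 := by omega
  have h1 : (a.1 * 6 + b.1) / 6 = a.1 := by omega
  have h2 : (a.1 * 6 + b.1) % 6 = b.1 := by omega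
  have e1 : (⟨(a.1 * 6 + b.1) / 6, by omega⟩ : Fin 6) = a := Fin.ext h1
  have e2 : (⟨(a.1 * 6 + b.1) % 6, by omega⟩ : Fin 6) = b := Fin.ext h2
  show bit2 _ _ _ = _
  unfold bit2 pk
  simp only [Nat.testBit_ofBits_lt _ _ h, e1, e2]

/-- the packed product -/
def pmul (A B : PK) : PK := pk (mul6 (toM A) (toM B))

theorem toM_pmul (A B : PK) : toM (pmul A B) = toM A * toM B := by
  rw [pmul, toM_pk, mul6_eq]

/-- the packed identity -/
def pone : PK := pk 1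

theorem toM_pone : toM pone = 1 := toM_pk 1

/-- packed powers -/
def ppow (A : PK) : ℕ → PK
  | 0 => pone
  | n + 1 => pmul (ppow A n) A

theorem toM_ppow (A : PK) (n : ℕ) : toM (ppow A n) = toM A ^ n := by
  induction n with
  | zero => simp [ppow, toM_pone]
  | succ n ih => rw [ppow, toM_pmul, ih, pow_succ]

/-- the value of a word and of its inverse, for involutory letters -/
def evW {α : Type} (f : α → PK) : WExp α → PK × PK
  | .of a => (f a, f a)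
  | .mul x y => (pmul (evW f x).1 (evW f y).1, pmul (evW f y).2 (evW f x).2)
  | .inv x => ((evW f x).2, (evW f x).1)
  | .pow x n => (ppow (evW f x).1 n, ppow (evW f x).2 n)

theorem rho_evW {α : Type} (f : α → PK) (u : α → Gam) (h1 : ∀ x, rho (u x) = toM (f x))
    (h2 : ∀ x, u x * u x = 1) (e : WExp α) :
    rho (e.evalIn u) = toM (evW f e).1 ∧ rho (e.evalIn u)⁻¹ = toM (evW f e).2 := by
  induction e with
  | of a =>
    refine ⟨h1 a, ?_⟩
    show rho (u a)⁻¹ = _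
    rw [inv_eq_of_mul_eq_one_left (h2 a)]
    exact h1 a
  | mul x y hx hy =>
    constructor
    · show rho (x.evalIn u * y.evalIn u) = toM (pmul _ _)
      rw [map_mul, toM_pmul, hx.1, hy.1]
    · show rho (x.evalIn u * y.evalIn u)⁻¹ = toM (pmul _ _)
      rw [mul_inv_rev, map_mul, toM_pmul, hx.2, hy.2]
  | inv x hx =>
    constructor
    · exact hx.2
    · show rho ((x.evalIn u)⁻¹)⁻¹ = _
      rw [inv_inv]
      exact hx.1
  | pow x n hx =>
    constructor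
    · show rho (x.evalIn u ^ n) = toM (ppow _ _)
      rw [map_pow, toM_ppow, hx.1]
    · show rho (x.evalIn u ^ n)⁻¹ = toM (ppow _ _)
      rw [← inv_pow, map_pow, toM_ppow, hx.2]

/-- the value of a list of letters -/
def evL {α : Type} (f : α → PK) (l : List α) : PK := l.foldl (fun A x => pmul A (f x)) pone

theorem toM_foldl {α : Type} (f : α → PK) (u : α → Gam) (h1 : ∀ x, rho (u x) = toM (f x))
    (l : List α) (B : PK) :
    toM (l.foldl (fun A x => pmul A (f x)) B) = toM B * rho (l.map u).prod := by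
  induction l generalizing B with
  | nil => simp
  | cons x l ih =>
    rw [List.foldl_cons, ih, toM_pmul, List.map_cons, List.prod_cons, map_mul, h1, mul_assoc]

theorem rho_evL {α : Type} (f : α → PK) (u : α → Gam) (h1 : ∀ x, rho (u x) = toM (f x))
    (l : List α) : rho (l.map u).prod = toM (evL f l) := by
  rw [evL, toM_foldl f u h1, toM_pone, one_mul]

theorem rho_injective : Function.Injective rho := by
  intro g h hgh
  apply phi1_injective
  exact Units.ext hgh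

abbrev Gen := Cfsg.Agent.Lib.Helper35Suzc1.Gen

/-- the images of the generators -/
noncomputable def img : Gen → Gam
  | .a => gm 11 1
  | .b => gm 0 ⟨true, true⟩
  | .c => gm 6 1 * gm 11 w
  | .d => gm 7 1
  | .e => gm 4 1
  | .f => gm 11 w

/-- the same, packed -/
def fpk : Gen → PK
  | .a => pk (gen6 11 1)
  | .b => pk (gen6 0 ⟨true, true⟩)
  | .c => pmul (pk (gen6 6 1)) (pk (gen6 11 w))
  | .d => pk (gen6 7 1)
  | .e => pk (gen6 4 1)
  | .f => pk (gen6 11 w)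

theorem rho_img (x : Gen) : rho (img x) = toM (fpk x) := by
  cases x
  · exact (toM_pk _).symm
  · exact (toM_pk _).symm
  · show rho (gm 6 1 * gm 11 w) = toM (pmul _ _)
    rw [map_mul, toM_pmul, toM_pk, toM_pk]
    rfl
  · exact (toM_pk _).symm
  · exact (toM_pk _).symm
  · exact (toM_pk _).symm

theorem sq_chk : ∀ x : Gen, pmul (fpk x) (fpk x) = pone := by
  intro x; cases x <;> decide +kernel

theorem img_sq (x : Gen) : img x * img x = 1 := by
  apply rho_injective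
  rw [map_mul, rho_img, ← toM_pmul, sq_chk, toM_pone, map_one]

theorem rel_chk : ∀ e ∈ Cfsg.Agent.Lib.Helper35Suzc1.K.relExps, (evW fpk e).1 = pone := by
  decide +kernel

theorem hrel : ∀ e ∈ Cfsg.Agent.Lib.Helper35Suzc1.K.relExps, e.evalIn img = 1 := by
  intro e he
  apply rho_injective
  rw [(rho_evW fpk img rho_img img_sq e).1, rel_chk e he, toM_pone, map_one]

/-- words for the root elements -/
def wdT : List (List Gen) := [
  [],
  [.a, .b, .f, .a, .b, .a, .f, .b, .a],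
  [.f, .b, .a, .b, .f],
  [.b],
  [],
  [.c, .d, .b, .c, .b, .a, .b, .f, .a, .b, .c, .d, .c, .d, .c, .b, .a, .f, .b, .a, .b, .c, .b, .d, .c],
  [.d, .c, .b, .f, .a, .b, .c, .d, .c, .b, .a, .b, .c, .d, .c, .b, .a, .f, .b, .c, .d],
  [.d, .c, .b, .a, .b, .f, .b, .c, .d, .c, .b, .c, .d, .c, .b, .f, .b, .a, .b, .c, .d],
  [],
  [.e, .d, .c, .a, .b, .f, .d, .e, .a, .b, .c, .d, .c, .b, .a, .e, .d, .f, .b, .a, .c, .d, .e],
  [.e, .d, .c, .a, .b, .f, .b, .c, .d, .e, .a, .b, .c, .d, .c, .b, .a, .e, .d, .c, .b, .f, .b, .a, .c, .d, .e],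
  [.e, .d, .c, .a, .b, .f, .c, .d, .e, .b, .a, .b, .c, .d, .c, .b, .a, .b, .e, .d, .c, .f, .b, .a, .c, .d, .e],
  [],
  [.c, .a, .b, .f, .d, .e, .d, .a, .b, .c, .d, .c, .b, .a, .d, .e, .d, .f, .b, .a, .c],
  [.c, .a, .b, .f, .b, .c, .d, .e, .d, .a, .b, .c, .d, .c, .b, .a, .d, .e, .d, .c, .b, .f, .b, .a, .c],
  [.c, .a, .b, .f, .c, .d, .e, .d, .b, .a, .b, .c, .d, .c, .b, .a, .b, .d, .e, .d, .c, .f, .b, .a, .c],
  [],
  [.e],
  [.d, .c, .d, .b, .a, .b, .c, .d, .e, .a, .b, .c, .d, .c, .b, .a, .e, .d, .c, .b, .a, .b, .d, .c, .d],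
  [.d, .c, .d, .b, .c, .d, .e, .a, .b, .a, .b, .c, .d, .c, .b, .a, .b, .a, .e, .d, .c, .b, .d, .c, .d],
  [],
  [.f, .b, .c, .b, .a, .b, .f, .e, .a, .b, .c, .d, .c, .d, .c, .b, .a, .e, .f, .b, .a, .b, .c, .b, .f],
  [.c, .b, .f, .e, .a, .b, .c, .d, .c, .b, .a, .b, .c, .d, .c, .b, .a, .e, .f, .b, .c],
  [.c, .b, .a, .b, .f, .e, .b, .c, .d, .c, .b, .c, .d, .c, .b, .e, .f, .b, .a, .b, .c],
  [],
  [.d, .c, .d, .b, .c, .a, .b, .f, .b, .c, .a, .b, .a, .c, .b, .f, .b, .a, .c, .b, .d, .c, .d],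
  [.d, .c, .b, .a, .b, .f, .a, .b, .c, .d, .c, .d, .c, .b, .a, .f, .b, .a, .b, .c, .d],
  [.d, .c, .b, .f, .d, .a, .b, .c, .a, .b, .a, .c, .b, .a, .d, .f, .b, .c, .d],
  [],
  [.d],
  [.e, .c, .d, .b, .a, .b, .c, .d, .e, .a, .b, .c, .d, .c, .b, .a, .e, .d, .c, .b, .a, .b, .d, .c, .e],
  [.e, .c, .d, .b, .c, .d, .e, .a, .b, .a, .b, .c, .d, .c, .b, .a, .b, .a, .e, .d, .c, .b, .d, .c, .e],
  [],
  [.e, .d, .b, .c, .a, .b, .f, .b, .c, .d, .e, .b, .a, .b, .c, .d, .c, .b, .a, .b, .e, .d, .c, .b, .f, .b, .a, .c, .b, .d, .e],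
  [.e, .d, .b, .c, .d, .c, .b, .f, .e, .a, .b, .c, .d, .c, .b, .a, .e, .f, .b, .c, .d, .c, .b, .d, .e],
  [.e, .d, .b, .c, .a, .b, .f, .c, .d, .e, .a, .b, .c, .d, .c, .b, .a, .e, .d, .c, .f, .b, .a, .c, .b, .d, .e],
  [],
  [.b, .c, .a, .b, .f, .b, .c, .d, .e, .d, .b, .a, .b, .c, .d, .c, .b, .a, .b, .d, .e, .d, .c, .b, .f, .b, .a, .c, .b],
  [.e, .b, .c, .d, .c, .b, .f, .e, .a, .b, .c, .d, .c, .b, .a, .e, .f, .b, .c, .d, .c, .b, .e],
  [.b, .c, .a, .b, .f, .c, .d, .e, .d, .a, .b, .c, .d, .c, .b, .a, .d, .e, .d, .c, .f, .b, .a, .c, .b],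
  [],
  [.e, .c, .d, .b, .c, .a, .b, .f, .b, .c, .a, .b, .a, .c, .b, .f, .b, .a, .c, .b, .d, .c, .e],
  [.c, .b, .a, .b, .f, .e, .a, .b, .c, .d, .c, .d, .c, .b, .a, .e, .f, .b, .a, .b, .c],
  [.c, .b, .f, .e, .d, .a, .b, .c, .a, .b, .a, .c, .b, .a, .d, .e, .f, .b, .c],
  [],
  [.a],
  [.f],
  [.b, .a, .b, .f, .a, .b, .a, .b, .a, .f, .b, .a, .b]]

/-- the word of a root element -/
def wd (r : Fin 12) (t : K) : List Gen := wdT.getD (r.1 * 4 + tIdx t) []

theorem wd_chk : ∀ (r : Fin 12) (t : K), evL fpk (wd r t) = pk (gen6 r t) := by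
  decide +kernel

theorem gm_eq (r : Fin 12) (t : K) : gm r t = ((wd r t).map img).prod := by
  apply rho_injective
  rw [rho_evL fpk img rho_img, wd_chk, toM_pk]
  rfl

end Cfsg.Agent.Lib.Helper62SuzG
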