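import Cfsg.Agent.Lib.Helper62SuzG

set_option autoImplicit false

/-! Assembly: the subgroup `⟨a, …, f⟩` of the presented Suzuki group is `G2(4)`. -/

namespace Cfsg.Agent.Lib.Helper62SuzH

open Cfsg.Lie Cfsg.Agent.Lib.Helper62F4 Cfsg.Agent.Lib.Helper62G24a Cfsg.Agent.Lib.Helper62G24b
  Cfsg.Agent.Lib.Helper62G24d Cfsg.Agent.Lib.Helper35TC Cfsg.Agent.Lib.Helper62SuzG

/-- the group presented on `a, …, f` -/
abbrev P6 := Cfsg.Agent.Lib.Helper35Suzc1.K.Grp

/-- the homomorphism to `G2(4)` -/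
noncomputable def phi : P6 →* Gam := Cfsg.Agent.Lib.Helper35Suzc1.ok.homTo img hrel

theorem phi_of (x : Gen) : phi (PresentedGroup.of x) = img x :=
  Cfsg.Agent.Lib.Helper35Suzc1.ok.homTo_of img hrel x

theorem gm_mem (r : Fin 12) (t : K) : gm r t ∈ phi.range := by
  rw [gm_eq]
  apply Subgroup.list_prod_mem
  intro y hy
  obtain ⟨x, _, rfl⟩ := List.mem_map.1 hy
  exact ⟨_, phi_of x⟩

theorem phi_surjective : Function.Surjective phi := by
  have h : Gam ≤ phi.range.map Gam.subtype := by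
    unfold Gam
    rw [Subgroup.closure_le]
    rintro _ ⟨p, rfl⟩
    exact ⟨gm p.1 p.2, gm_mem p.1 p.2, rfl⟩
  intro g
  obtain ⟨y, hy, hyg⟩ := h g.2
  obtain ⟨x, rfl⟩ := hy
  exact ⟨x, Subtype.ext hyg⟩

instance : Finite P6 := Cfsg.Agent.Lib.Helper35SuzUb.ub1.1

theorem card_P6 : Nat.card P6 ≤ 251596800 := Cfsg.Agent.Lib.Helper35SuzUb.ub1.2

/-- the presented group is `G2(4)` -/
noncomputable def e1 : P6 ≃* Gam :=
  MulEquiv.ofBijective phi (phi_surjective.bijective_of_nat_card_le (by rw [card_Gam]; exact card_P6))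

/-- the subgroup of the presented Suzuki group -/
noncomputable abbrev H := Cfsg.Agent.Lib.Helper35SuzA.K.H

/-- the map to the Suzuki group -/
noncomputable def psi : P6 →* Cfsg.Agent.Lib.Helper35SuzA.K.Grp :=
  Cfsg.Agent.Lib.Helper35Suzc1.ok.homOf Cfsg.Agent.Lib.Helper35SuzA.K Cfsg.Agent.Lib.Helper35SuzUb.i0
    (fun e he => Cfsg.Agent.Lib.Helper35SuzA.ok.rel_one (Cfsg.Agent.Lib.Helper35SuzUb.hmem0 e he))

theorem psi_of (x : Gen) : psi (PresentedGroup.of x) = PresentedGroup.of (Cfsg.Agent.Lib.Helper35SuzUb.i0 x) :=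
  Cfsg.Agent.Lib.Helper35Suzc1.ok.homOf_of _ _ _ x

theorem psi_range_le : psi.range ≤ H := by
  apply Pkg.range_le_of_gens
  intro x
  rw [psi_of]
  refine ⟨FreeGroup.of (Cfsg.Agent.Lib.Helper35SuzUb.i0 x), Subgroup.subset_closure ?_, rfl⟩
  show _ ∈ ({Cfsg.Spor.Suz.a, Cfsg.Spor.Suz.b, Cfsg.Spor.Suz.c, Cfsg.Spor.Suz.d, Cfsg.Spor.Suz.e,
    Cfsg.Spor.Suz.f} : Set (FreeGroup Cfsg.Spor.Suz.Gen))
  cases x <;> simp [Cfsg.Agent.Lib.Helper35SuzUb.i0]

theorem le_psi_range : H ≤ psi.range := by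
  apply Cfsg.Agent.Lib.Helper35SuzA.ok.H_le
  intro e he
  obtain ⟨e', rfl⟩ := hsub_of_list Cfsg.Agent.Lib.Helper35SuzUb.i0 _
    [(.of .a), (.of .b), (.of .c), (.of .d), (.of .e), (.of .f)] (by decide +kernel) e he
  exact ⟨PresentedGroup.mk _ e'.eval, Cfsg.Agent.Lib.Helper35Suzc1.ok.homOf_mk _ _ _ e'⟩

/-- the map onto the subgroup -/
noncomputable def psi' : P6 →* H := psi.codRestrict H (fun x => psi_range_le ⟨x, rfl⟩)

theorem psi'_surjective : Function.Surjective psi' := by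
  intro g
  obtain ⟨x, hx⟩ := le_psi_range g.2
  exact ⟨x, Subtype.ext hx⟩

/-- the presented group is the subgroup -/
noncomputable def e2 : P6 ≃* H :=
  MulEquiv.ofBijective psi' (psi'_surjective.bijective_of_nat_card_le
    (by rw [Cfsg.Agent.Lib.Helper35SuzFin.card_H]; exact card_P6))

theorem main : Nonempty (H ≃* chevG2.group K) := ⟨(e2.symm.trans e1).trans iso⟩

end Cfsg.Agent.Lib.Helper62SuzH
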