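import Mathlib

set_option autoImplicit false
set_option linter.style.haveILetI false
set_option linter.unusedSectionVars false

namespace Cfsg.Agent.Lib.Helper63Affine

/-- A permutation that agrees with an affine map on every triple is affine (odd characteristic). -/
theorem affine_of_three_closed (p : ℕ) [Fact p.Prime] (hp : p ≠ 2) {V : Type*} [AddCommGroup V]
    [Module (ZMod p) V] (σ : Equiv.Perm V)
    (hσ : ∀ t : Fin 3 → V, ∃ (A : V ≃ₗ[ZMod p] V) (b : V), ∀ i, σ (t i) = A (t i) + b) :
    ∃ (A : V ≃ₗ[ZMod p] V) (b : V), ∀ x, σ x = A x + b := by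
  have h2 : (2 : ZMod p) ≠ 0 := by
    intro h
    have h' : ((2 : ℕ) : ZMod p) = 0 := by exact_mod_cast h
    rw [ZMod.natCast_eq_zero_iff] at h'
    have := (Nat.prime_dvd_prime_iff_eq Fact.out Nat.prime_two).mp h'
    exact hp this
  have mid : ∀ x y m : V, m + m = x + y → σ m + σ m = σ x + σ y := by
    intro x y m hm
    obtain ⟨A, b, h⟩ := hσ ![x, y, m]
    have h0 := h 0
    have h1 := h 1
    have h2 := h 2
    simp only [Matrix.cons_val_zero, Matrix.cons_val_one, Matrix.cons_val] at h0 h1 h2
    rw [h0, h1, h2]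
    have : A m + A m = A x + A y := by rw [← map_add, ← map_add, hm]
    calc A m + b + (A m + b) = (A m + A m) + (b + b) := by abel
      _ = (A x + A y) + (b + b) := by rw [this]
      _ = A x + b + (A y + b) := by abel
  have add : ∀ x y : V, σ (x + y) + σ 0 = σ x + σ y := by
    intro x y
    set m : V := (2 : ZMod p)⁻¹ • (x + y) with hm
    have hmm : m + m = x + y := by
      rw [← two_smul (ZMod p) m, hm, smul_smul, mul_inv_cancel₀ h2, one_smul]
    rw [← mid x y m hmm, ← mid (x + y) 0 m (by rw [hmm, add_zero])]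
  let τ : V →+ V :=
    { toFun := fun x => σ x - σ 0
      map_zero' := sub_self _
      map_add' := fun x y => by
        have := add x y
        have e : σ (x + y) = σ x + σ y - σ 0 := by rw [← this]; abel
        rw [e]; abel }
  have hbij : Function.Bijective (τ.toZModLinearMap p) := by
    constructor
    · intro x y hxy
      have : σ x - σ 0 = σ y - σ 0 := hxy
      exact σ.injective (sub_left_injective this)
    · intro y
      obtain ⟨x, hx⟩ := σ.surjective (y + σ 0)
      refine ⟨x, ?_⟩
      change σ x - σ 0 = y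
      rw [hx]; abel
  refine ⟨LinearEquiv.ofBijective (τ.toZModLinearMap p) hbij, σ 0, fun x => ?_⟩
  change σ x = (σ x - σ 0) + σ 0
  abel

/-- Two linear maps with the same kernel differ by an automorphism of the target. -/
theorem exists_linearEquiv_of_ker_eq {K M V : Type*} [Field K] [AddCommGroup M] [Module K M]
    [AddCommGroup V] [Module K V] [FiniteDimensional K V] (U W : M →ₗ[K] V)
    (h : LinearMap.ker U = LinearMap.ker W) : ∃ g : V ≃ₗ[K] V, ∀ c, g (U c) = W c := by
  let f : LinearMap.range U ≃ₗ[K] LinearMap.range W :=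
    (U.quotKerEquivRange).symm ≪≫ₗ (Submodule.quotEquivOfEq _ _ h) ≪≫ₗ W.quotKerEquivRange
  obtain ⟨g, hg⟩ := Submodule.exists_linearEquiv_restrict_eq f
  refine ⟨g, fun c => ?_⟩
  have h1 := hg ⟨U c, LinearMap.mem_range_self U c⟩
  rw [← h1]
  have h2 : (U.quotKerEquivRange).symm ⟨U c, LinearMap.mem_range_self U c⟩
      = Submodule.Quotient.mk c := by
    rw [LinearEquiv.symm_apply_eq]
    rfl
  simp only [f, LinearEquiv.trans_apply, h2]
  rfl

/-- A linear automorphism fixing a proper subspace pointwise, with prescribed determinant. -/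
theorem exists_linearEquiv_det {K V : Type*} [Field K] [AddCommGroup V] [Module K V]
    [FiniteDimensional K V] (W : Submodule K V) (hW : W < ⊤) (a : K) (ha : a ≠ 0) :
    ∃ B : V ≃ₗ[K] V, (∀ x ∈ W, B x = x) ∧ LinearMap.det (B : V →ₗ[K] V) = a := by
  obtain ⟨f, hf, hWf⟩ := Submodule.exists_le_ker_of_lt_top W hW
  obtain ⟨v, hv⟩ : ∃ v, f v ≠ 0 := by
    by_contra hcon
    push Not at hcon
    exact hf (LinearMap.ext hcon)
  set v' : V := ((a - 1) * (f v)⁻¹) • v with hv'
  have h1 : 1 + f v' = a := by
    rw [hv', map_smul, smul_eq_mul, mul_assoc, inv_mul_cancel₀ hv]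
    ring
  have hu : IsUnit (1 + f v') := by rw [h1]; exact ha.isUnit
  refine ⟨LinearEquiv.dilatransvection hu, fun x hx => ?_, ?_⟩
  · rw [LinearEquiv.dilatransvection.apply]
    have : f x = 0 := hWf hx
    rw [this, zero_smul, add_zero]
  · rw [LinearEquiv.dilatransvection.coe_toLinearMap, LinearMap.transvection.det, h1]

end Cfsg.Agent.Lib.Helper63Affine
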