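import Cfsg.Agent.Lib.Helper63Derange

set_option autoImplicit false
set_option linter.style.haveILetI false
set_option linter.unusedSectionVars false

namespace Cfsg.Agent.Lib.Helper63Derange2

open MulAction Cfsg.Agent.Lib.Helper63Derange
open scoped Pointwise

variable {G Ω : Type*} [Group G] [Finite G] [MulAction G Ω] [Finite Ω]

theorem mem_der_of_two_fixed [IsPretransitive G Ω] {g : G} {α β : Ω} (h : β ≠ α)
    (hα : g • α = α) (hβ : g • β = β) : g ∈ der G Ω := by
  by_contra hg
  have h1 := card_fixedBy_of_not_mem_der hg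
  rw [Nat.card_eq_one_iff_unique] at h1
  have := h1.1.elim (⟨α, hα⟩ : fixedBy Ω g) ⟨β, hβ⟩
  exact h (congrArg Subtype.val this).symm

theorem der_sup_stabilizer [IsPretransitive G Ω] (α : Ω) : der G Ω ⊔ stabilizer G α = ⊤ := by
  rw [eq_top_iff]
  intro g _
  haveI := der_pretransitive (G := G) (Ω := Ω)
  obtain ⟨d, hd⟩ := exists_smul_eq (der G Ω) α (g • α)
  have h1 : (d : G)⁻¹ * g ∈ stabilizer G α := by
    rw [mem_stabilizer_iff, mul_smul, ← hd]
    exact inv_smul_smul _ _
  have : g = (d : G) * ((d : G)⁻¹ * g) := by group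
  rw [this]
  exact Subgroup.mul_mem_sup d.2 h1

theorem relIndex_der [IsPretransitive G Ω] (α : Ω) :
    (der G Ω).relIndex (stabilizer G α) = (der G Ω).index := by
  rw [← Subgroup.relIndex_sup_left, der_sup_stabilizer, Subgroup.relIndex_top_right]

theorem stabilizer_le [IsPretransitive G Ω] {α β : Ω} (h : β ≠ α) :
    stabilizer (stabilizer G α) β ≤ (der G Ω).subgroupOf (stabilizer G α) := by
  intro x hx
  rw [Subgroup.mem_subgroupOf]
  exact mem_der_of_two_fixed h x.2 hx

theorem index_dvd_orbit [IsPretransitive G Ω] {α β : Ω} (h : β ≠ α) :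
    (der G Ω).index ∣ (orbit (stabilizer G α) β).ncard := by
  rw [← index_stabilizer, ← relIndex_der α]
  exact Subgroup.index_dvd_of_le (stabilizer_le h)

theorem index_dvd_invariant [IsPretransitive G Ω] (α : Ω) (S : Set Ω) (hα : α ∈ S)
    (hS : ∀ h : stabilizer G α, ∀ x ∈ S, h • x ∈ S) : (der G Ω).index ∣ S.ncard - 1 := by
  have h1 : (S \ {α}).ncard = S.ncard - 1 := Set.ncard_diff_singleton_of_mem hα
  rw [← h1]
  apply dvd_ncard_of_invariant (H := stabilizer G α)
  · rintro h x ⟨hx, hx'⟩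
    refine ⟨hS h x hx, fun hc => hx' ?_⟩
    have hc' : h • x = α := hc
    have h3 : h⁻¹ • α = α := (h⁻¹).2
    have : x = h⁻¹ • α := by
      have := congrArg (fun z => h⁻¹ • z) hc'
      simpa using this
    rw [this]
    exact h3
  · rintro x ⟨_, hx'⟩
    exact index_dvd_orbit hx'

theorem index_dvd_card_sub_one [IsPretransitive G Ω] [Nonempty Ω] :
    (der G Ω).index ∣ Nat.card Ω - 1 := by
  have := index_dvd_invariant (G := G) (Classical.arbitrary Ω) Set.univ (Set.mem_univ _)
    (fun _ _ _ => Set.mem_univ _)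
  rwa [Set.ncard_univ] at this

theorem isPrimePow_of_index_eq [FaithfulSMul G Ω] [IsPretransitive G Ω] (hΩ : 2 ≤ Nat.card Ω)
    (hidx : (der G Ω).index = Nat.card Ω - 1) : IsPrimePow (Nat.card Ω) := by
  classical
  haveI : Nonempty Ω := by
    by_contra h
    rw [not_nonempty_iff] at h
    simp at hΩ
  set D := der G Ω with hD
  obtain ⟨α⟩ := ‹Nonempty Ω›
  set H := stabilizer G α with hH
  have hsub : ∀ β : Ω, β ≠ α → orbit H β ⊆ Set.univ \ {α} := by
    rintro β hβ _ ⟨h, rfl⟩
    refine ⟨Set.mem_univ _, fun hc => hβ ?_⟩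
    have hc' : h • β = α := hc
    have h3 : h⁻¹ • α = α := (h⁻¹).2
    have : β = h⁻¹ • α := by
      have := congrArg (fun z => h⁻¹ • z) hc'
      simpa using this
    rw [this]
    exact h3
  have hcard : (Set.univ \ {α} : Set Ω).ncard = Nat.card Ω - 1 := by
    rw [Set.ncard_diff_singleton_of_mem (Set.mem_univ _), Set.ncard_univ]
  have ha : ∀ β : Ω, β ≠ α → (orbit H β).ncard = Nat.card Ω - 1 := by
    intro β hβ
    have h1 : (orbit H β).ncard ≤ Nat.card Ω - 1 := by
      rw [← hcard]
      exact Set.ncard_le_ncard (hsub β hβ) (Set.toFinite _)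
    have h2 : Nat.card Ω - 1 ∣ (orbit H β).ncard := by
      rw [← hidx]; exact index_dvd_orbit hβ
    have h3 : 0 < (orbit H β).ncard :=
      (Set.ncard_pos (Set.toFinite _)).mpr ⟨β, mem_orbit_self β⟩
    exact le_antisymm h1 (Nat.le_of_dvd h3 h2)
  have ha' : ∀ β : Ω, β ≠ α → orbit H β = Set.univ \ {α} := by
    intro β hβ
    apply Set.eq_of_subset_of_ncard_le (hsub β hβ) _ (Set.toFinite _)
    rw [hcard, ha β hβ]
  have hb : ∀ β : Ω, β ≠ α → D.subgroupOf H ≤ stabilizer H β := by
    intro β hβ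
    have hle := stabilizer_le (G := G) hβ
    have h1 : (stabilizer H β).index = (D.subgroupOf H).index := by
      rw [index_stabilizer, ha β hβ, ← hidx, ← relIndex_der α]
      rfl
    have h2 := (stabilizer H β).card_mul_index
    have h3 := (D.subgroupOf H).card_mul_index
    rw [h1] at h2
    have h4 : Nat.card (stabilizer H β) = Nat.card (D.subgroupOf H) := by
      apply Nat.eq_of_mul_eq_mul_right
        (Nat.pos_of_ne_zero (Subgroup.index_ne_zero_of_finite (H := D.subgroupOf H)))
      rw [h2, h3]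
    exact (Subgroup.eq_of_le_of_card_ge hle h4.ge).ge
  have hc : ∀ x : G, x ∈ D → x • α = α → x = 1 := by
    intro x hxD hxα
    apply FaithfulSMul.eq_of_smul_eq_smul (α := Ω)
    intro β
    rw [one_smul]
    by_cases hβ : β = α
    · rw [hβ]; exact hxα
    · have : (⟨x, hxα⟩ : H) ∈ D.subgroupOf H := by
        rw [Subgroup.mem_subgroupOf]; exact hxD
      exact hb β hβ this
  have hd : ∀ d d' : G, d ∈ D → d' ∈ D → d ≠ 1 → d' ≠ 1 → orderOf d = orderOf d' := by
    intro d d' hdD hd'D hd1 hd'1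
    have h1 : d • α ≠ α := fun h => hd1 (hc d hdD h)
    have h2 : d' • α ≠ α := fun h => hd'1 (hc d' hd'D h)
    have h3 : d' • α ∈ orbit H (d • α) := by
      rw [ha' _ h1]
      exact ⟨Set.mem_univ _, h2⟩
    obtain ⟨h, hh⟩ := h3
    have hh' : (h : G) • d • α = d' • α := hh
    have h4 : d'⁻¹ * ((h : G) * d * (h : G)⁻¹) = 1 := by
      apply hc
      · exact D.mul_mem (D.inv_mem hd'D) (der_normal.conj_mem d hdD h)
      · have h5 : (h : G)⁻¹ • α = α := (h⁻¹).2
        rw [mul_smul, mul_smul, mul_smul, h5, hh', inv_smul_smul]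
    have h6 : d' = (h : G) * d * (h : G)⁻¹ := by
      have := congrArg (fun z => d' * z) h4
      simpa using this.symm
    rw [h6]
    exact SemiconjBy.orderOf_eq (h : G) (by
      unfold SemiconjBy
      group)
  have he : Nat.card D = Nat.card Ω := by
    haveI := der_pretransitive (G := G) (Ω := Ω)
    have h1 : stabilizer D α = ⊥ := by
      rw [eq_bot_iff]
      intro x hx
      rw [Subgroup.mem_bot]
      exact Subtype.ext (hc x x.2 hx)
    have h2 := index_stabilizer_of_transitive D α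
    rw [h1, Subgroup.index_bot] at h2
    exact h2
  set p := (Nat.card Ω).minFac with hp
  have hpp : p.Prime := Nat.minFac_prime (by omega)
  haveI : Fact p.Prime := ⟨hpp⟩
  obtain ⟨x, hx⟩ := exists_prime_orderOf_dvd_card' (G := D) p (by rw [he]; exact Nat.minFac_dvd _)
  have hx1 : (x : G) ≠ 1 := by
    intro h
    have : x = 1 := Subtype.ext h
    rw [this, orderOf_one] at hx
    exact hpp.one_lt.ne hx
  have hpg : IsPGroup p D := by
    intro y
    refine ⟨1, ?_⟩
    by_cases hy : (y : G) = 1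
    · have : y = 1 := Subtype.ext hy
      rw [this, one_pow]
    · have h1 := hd y x y.2 x.2 hy hx1
      rw [Subgroup.orderOf_coe, Subgroup.orderOf_coe, hx] at h1
      rw [pow_one, ← h1, pow_orderOf_eq_one]
  obtain ⟨k, hk⟩ := IsPGroup.iff_card.mp hpg
  rw [he] at hk
  refine ⟨p, k, hpp.prime, ?_, hk.symm⟩
  rcases Nat.eq_zero_or_pos k with rfl | hk0
  · rw [pow_zero] at hk; omega
  · exact hk0

theorem index_le_sqrt [IsPretransitive G Ω] (himp : ¬ IsPreprimitive G Ω) :
    ((der G Ω).index : ℝ) ≤ Real.sqrt (Nat.card Ω) - 1 := by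
  classical
  have : ∃ B : Set Ω, IsBlock G B ∧ ¬ IsTrivialBlock B := by
    by_contra h
    push Not at h
    exact himp ⟨fun {B} hB => h B hB⟩
  obtain ⟨B, hB, hBt⟩ := this
  unfold IsTrivialBlock at hBt
  push Not at hBt
  obtain ⟨hB1, hB2⟩ := hBt
  obtain ⟨α, hα⟩ := hB1.nonempty
  haveI : Nonempty Ω := ⟨α⟩
  have hk := hB.ncard_block_mul_ncard_orbit_eq ⟨α, hα⟩
  set k := B.ncard with hkdef
  set m := (orbit G B).ncard with hmdef
  have hk2 : 2 ≤ k := (Set.one_lt_ncard (Set.toFinite _)).mpr (by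
    obtain ⟨a, ha, b, hb, hab⟩ := hB1
    exact ⟨a, ha, b, hb, hab⟩)
  have hkn : k < Nat.card Ω := by
    rw [← Set.ncard_univ]
    apply Set.ncard_lt_ncard _ (Set.toFinite _)
    exact Set.ssubset_univ_iff.mpr hB2
  have hm2 : 2 ≤ m := by
    by_contra h
    have : m = 0 ∨ m = 1 := by omega
    rcases this with h | h <;> rw [h] at hk <;> omega
  set i := (der G Ω).index with hi
  have h1 : i ∣ k - 1 := by
    apply index_dvd_invariant α B hα
    intro h x hx
    have : (h : G) • B = B := by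
      apply hB.smul_eq_of_mem hα
      have h0 : (h : G) • α = α := h.2
      exact h0.symm ▸ hα
    rw [← this]
    exact Set.smul_mem_smul_set hx
  have h2 : i ∣ Nat.card Ω - 1 := index_dvd_card_sub_one
  have h3 : i ∣ m - 1 := by
    have e1 : Nat.card Ω - 1 = k * (m - 1) + (k - 1) := by
      rw [← hk]
      obtain ⟨m', hm'⟩ : ∃ m', m = m' + 1 := ⟨m - 1, by omega⟩
      obtain ⟨k', hk'⟩ : ∃ k', k = k' + 1 := ⟨k - 1, by omega⟩
      rw [hk', hm']
      simp only [Nat.add_sub_cancel]
      rw [mul_add, mul_one]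
      omega
    have h4 : i ∣ k * (m - 1) := by
      rw [e1] at h2
      exact (Nat.dvd_add_left h1).mp h2
    have h5 : Nat.Coprime i k := by
      have : Nat.Coprime (k - 1) k := by
        obtain ⟨k', hk'⟩ : ∃ k', k = k' + 1 := ⟨k - 1, by omega⟩
        rw [hk']
        simp
      exact Nat.Coprime.coprime_dvd_left h1 this
    exact h5.dvd_of_dvd_mul_left h4
  have h6 : i + 1 ≤ k := by
    have := Nat.le_of_dvd (by omega) h1
    omega
  have h7 : i + 1 ≤ m := by
    have := Nat.le_of_dvd (by omega) h3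
    omega
  have h8 : (i + 1) * (i + 1) ≤ Nat.card Ω := by
    rw [← hk]
    exact Nat.mul_le_mul h6 h7
  have h9 : ((i : ℝ) + 1) ≤ Real.sqrt (Nat.card Ω) := by
    apply Real.le_sqrt_of_sq_le
    have : (((i + 1) * (i + 1) : ℕ) : ℝ) ≤ (Nat.card Ω : ℝ) := by exact_mod_cast h8
    push_cast at this
    nlinarith [this]
  linarith

end Cfsg.Agent.Lib.Helper63Derange2
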