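import Mathlib

set_option autoImplicit false
set_option linter.style.haveILetI false
set_option linter.unusedSectionVars false

namespace Cfsg.Agent.Lib.Helper63Redei

open Polynomial Finset

variable (p : ℕ) [Fact p.Prime]

theorem sum_pow_lt (i : ℕ) (h : i < p - 1) : ∑ x : ZMod p, x ^ i = 0 := by
  apply FiniteField.sum_pow_lt_card_sub_one
  rwa [ZMod.card]

theorem sum_pow_top : ∑ x : ZMod p, x ^ (p - 1) = -1 := by
  have hp : p.Prime := Fact.out
  simp only [ZMod.pow_card_sub_one]
  rw [Finset.sum_ite, Finset.sum_const_zero, add_zero, Finset.sum_const, nsmul_eq_mul, mul_one]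
  have : (Finset.univ.filter (fun x : ZMod p => x ≠ 0)).card = p - 1 := by
    rw [Finset.filter_ne', Finset.card_erase_of_mem (Finset.mem_univ _), Finset.card_univ,
      ZMod.card]
  rw [this, Nat.cast_sub hp.one_le]
  simp

/-- Sum of the values of a polynomial of degree at most `p - 1`. -/
theorem sum_eval (g : (ZMod p)[X]) (hg : g.natDegree < p) :
    ∑ x : ZMod p, g.eval x = - g.coeff (p - 1) := by
  have hp : p.Prime := Fact.out
  simp only [Polynomial.eval_eq_sum_range' hg]
  rw [Finset.sum_comm]
  simp only [← Finset.mul_sum]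
  have hp1 : Finset.range p = Finset.range ((p - 1) + 1) := by
    congr 1
    have := hp.one_le; omega
  rw [hp1, Finset.sum_range_succ]
  rw [Finset.sum_eq_zero, zero_add, sum_pow_top]
  · ring
  · intro i hi
    rw [sum_pow_lt p i (Finset.mem_range.mp hi), mul_zero]

theorem choose_ne_zero {k r : ℕ} (hk : k < p) (hr : r ≤ k) : ((k.choose r : ℕ) : ZMod p) ≠ 0 := by
  have hp : p.Prime := Fact.out
  intro h
  rw [ZMod.natCast_eq_zero_iff] at h
  have h1 : k.choose r ∣ k.factorial := by
    rw [← Nat.choose_mul_factorial_mul_factorial hr, mul_assoc]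
    exact Dvd.intro _ rfl
  have h2 := (hp.dvd_factorial).mp (h.trans h1)
  omega

/-- The vanishing of mixed power sums. -/
theorem mixed_sum_eq_zero (f : ZMod p → ZMod p) (U : Finset (ZMod p))
    (hU : ∀ c ∈ U, Function.Injective (fun x => f x - c * x)) (q r : ℕ) (hq : 1 ≤ q)
    (h1 : q + r < p - 1) (h2 : q + r ≤ U.card) : ∑ x : ZMod p, x ^ r * f x ^ q = 0 := by
  set k := q + r with hk
  let b : ℕ → ZMod p := fun j => (k.choose j : ZMod p) * (-1) ^ j * ∑ x : ZMod p, x ^ j * f x ^ (k - j)
  let Q : (ZMod p)[X] := ∑ j ∈ Finset.range k, C (b j) * X ^ j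
  have hbk : b k = 0 := by
    simp only [b, Nat.sub_self, pow_zero, mul_one]
    rw [sum_pow_lt p k h1, mul_zero]
  have heval : ∀ c, Q.eval c = ∑ x : ZMod p, (f x - c * x) ^ k := by
    intro c
    have e1 : ∀ x : ZMod p, (f x - c * x) ^ k
        = ∑ j ∈ Finset.range (k + 1), (k.choose j : ZMod p) * (-1) ^ j * (x ^ j * f x ^ (k - j)) * c ^ j := by
      intro x
      rw [sub_eq_neg_add, add_pow]
      apply Finset.sum_congr rfl
      intro j _
      rw [neg_eq_neg_one_mul, mul_pow, mul_pow]
      ring
    simp only [e1]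
    rw [Finset.sum_comm, Finset.sum_range_succ]
    have e2 : ∑ x : ZMod p, (k.choose k : ZMod p) * (-1) ^ k * (x ^ k * f x ^ (k - k)) * c ^ k
        = b k * c ^ k := by
      simp only [b]
      rw [Finset.mul_sum, Finset.sum_mul]
    rw [e2, hbk, zero_mul, add_zero]
    simp only [Q, Polynomial.eval_finset_sum, eval_mul, eval_C, eval_pow, eval_X]
    apply Finset.sum_congr rfl
    intro j _
    simp only [b]
    rw [Finset.mul_sum, Finset.sum_mul]
  have hroot : ∀ c ∈ U, Q.eval c = 0 := by
    intro c hc
    rw [heval c]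
    have hbij : Function.Bijective (fun x => f x - c * x) :=
      (Finite.injective_iff_bijective).mp (hU c hc)
    rw [Function.Bijective.sum_comp hbij (fun y => y ^ k)]
    exact sum_pow_lt p k h1
  have hdeg : Q.degree < U.card := by
    have : Q.degree < k := by
      apply lt_of_le_of_lt (Polynomial.degree_sum_le _ _)
      rw [Finset.sup_lt_iff (by exact WithBot.bot_lt_coe k)]
      intro j hj
      apply lt_of_le_of_lt (Polynomial.degree_C_mul_X_pow_le j _)
      exact_mod_cast Finset.mem_range.mp hj
    exact lt_of_lt_of_le this (by exact_mod_cast h2)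
  have hQ : Q = 0 := Polynomial.eq_zero_of_degree_lt_of_eval_finset_eq_zero U hdeg hroot
  have hcoeff : Q.coeff r = b r := by
    simp only [Q, Polynomial.finset_sum_coeff, Polynomial.coeff_C_mul, Polynomial.coeff_X_pow]
    rw [Finset.sum_eq_single r]
    · simp
    · intro j _ hj
      rw [if_neg (Ne.symm hj), mul_zero]
    · intro h
      exfalso; apply h
      rw [Finset.mem_range]; omega
  rw [hQ, Polynomial.coeff_zero] at hcoeff
  have hkr : k - r = q := by omega
  simp only [b, hkr] at hcoeff
  have hc1 : ((k.choose r : ℕ) : ZMod p) ≠ 0 := choose_ne_zero p (by omega) (by omega)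
  have hc2 : ((-1 : ZMod p)) ^ r ≠ 0 := pow_ne_zero _ (by simp)
  rcases mul_eq_zero.mp hcoeff.symm with h | h
  · rcases mul_eq_zero.mp h with h | h
    · exact (hc1 h).elim
    · exact (hc2 h).elim
  · exact h

/-- **Rédei--Megyesi, Lovász--Schrijver**: a function on `ZMod p` missing more than half of the
directions is affine. -/
theorem affine_of_few_directions (f : ZMod p → ZMod p) (U : Finset (ZMod p))
    (hU : ∀ c ∈ U, Function.Injective (fun x => f x - c * x)) (hcard : p + 1 ≤ 2 * U.card) :
    ∃ a b : ZMod p, ∀ x, f x = a * x + b := by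
  have hp : p.Prime := Fact.out
  set P : (ZMod p)[X] := Lagrange.interpolate Finset.univ id f with hP
  have hPeval : ∀ x, P.eval x = f x := fun x =>
    Lagrange.eval_interpolate_at_node f (Function.injective_id.injOn) (Finset.mem_univ x)
  have hPdeg : P.degree < p := by
    have := Lagrange.degree_interpolate_lt (s := Finset.univ) (v := (id : ZMod p → ZMod p)) f
      (Function.injective_id.injOn)
    rwa [Finset.card_univ, ZMod.card] at this
  set m := P.natDegree with hm
  by_cases hm2 : m ≤ 1
  · refine ⟨P.coeff 1, P.coeff 0, fun x => ?_⟩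
    rw [← hPeval x]
    conv_lhs => rw [Polynomial.eq_X_add_C_of_natDegree_le_one hm2]
    simp
  · exfalso
    push Not at hm2
    have hP0 : P ≠ 0 := by
      intro h
      rw [hm, h] at hm2
      simp at hm2
    have hmp : m < p := by
      rw [Polynomial.degree_eq_natDegree hP0] at hPdeg
      exact_mod_cast hPdeg
    set q := (p - 1) / m with hq
    set r := (p - 1) % m with hr
    have hdiv : m * q + r = p - 1 := Nat.div_add_mod (p - 1) m
    have hrm : r < m := Nat.mod_lt _ (by omega)
    have hq1 : 1 ≤ q := by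
      rw [hq]
      exact (Nat.one_le_div_iff (by omega)).mpr (by omega)
    have hmq : m ≤ m * q := Nat.le_mul_of_pos_right _ hq1
    have hmq2 : 2 * q ≤ m * q := Nat.mul_le_mul_right _ hm2
    -- the arithmetic
    have hA : q + r < p - 1 := by
      nlinarith
    have hB : q + r ≤ U.card := by
      have : 2 * (q + r) ≤ p + 1 := by
        have h3 : (m - 2) ≤ (m - 2) * q := Nat.le_mul_of_pos_right _ hq1
        obtain ⟨m', hm'⟩ : ∃ m', m = m' + 2 := ⟨m - 2, by omega⟩
        rw [hm'] at h3 hdiv hrm
        simp only [Nat.add_sub_cancel] at h3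
        have h4 : (m' + 2) * q = m' * q + 2 * q := by ring
        omega
      omega
    have hzero := mixed_sum_eq_zero p f U hU q r hq1 hA hB
    set g : (ZMod p)[X] := X ^ r * P ^ q with hg
    have hgdeg : g.natDegree = p - 1 := by
      rw [hg, Polynomial.natDegree_mul (pow_ne_zero _ Polynomial.X_ne_zero) (pow_ne_zero _ hP0),
        Polynomial.natDegree_pow, Polynomial.natDegree_pow, Polynomial.natDegree_X, ← hm]
      rw [← hdiv]; ring
    have hsum := sum_eval p g (by rw [hgdeg]; have := hp.one_le; omega)
    have hgeval : ∀ x, g.eval x = x ^ r * f x ^ q := by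
      intro x
      simp [hg, hPeval]
    simp only [hgeval] at hsum
    rw [hzero] at hsum
    have hlc : g.coeff (p - 1) ≠ 0 := by
      rw [← hgdeg]
      have hg0 : g ≠ 0 := mul_ne_zero (pow_ne_zero _ Polynomial.X_ne_zero) (pow_ne_zero _ hP0)
      exact Polynomial.leadingCoeff_ne_zero.mpr hg0
    apply hlc
    have := hsum.symm
    simpa using this

end Cfsg.Agent.Lib.Helper63Redei
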