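import Mathlib
import Cfsg.Agent.S4343
import Cfsg.Agent.S4304
import Cfsg.Agent.Lib.Helper63SylowNum3

set_option autoImplicit false
set_option linter.style.haveILetI false
set_option linter.unusedSectionVars false

namespace Cfsg.Agent.Lib.Helper63Syl21a

open Subgroup MulAction Cfsg.Agent.Lib.Helper63SylowNum Cfsg.Agent.Lib.Helper63SylowNum2
  Cfsg.Agent.Lib.Helper63SylowNum3

instance fact5 : Fact (Nat.Prime 5) := ⟨by norm_num⟩
instance fact7 : Fact (Nat.Prime 7) := ⟨by norm_num⟩
instance fact3 : Fact (Nat.Prime 3) := ⟨by norm_num⟩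
instance fact2 : Fact (Nat.Prime 2) := ⟨by norm_num⟩

section
variable {G : Type*} [Group G] [Finite G]

/-- number of fixed Sylow 5-subgroups -/
noncomputable def fx (g : G) : ℕ := Nat.card (fixedBy (Sylow 5 G) g)

theorem fx_le (h : Nat.card (Sylow 5 G) = 21) (g : G) : fx g ≤ 21 := by
  rw [← h]
  exact Nat.card_le_card_of_injective _ Subtype.val_injective

theorem fx_le_pow (g : G) (n : ℕ) : fx g ≤ fx (g ^ n) := by
  apply Nat.card_mono (Set.toFinite _)
  intro x hx
  have : g ∈ stabilizer G x := hx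
  exact (stabilizer G x).pow_mem this n

variable [IsSimpleGroup G]

theorem fx_ne (h : Nat.card (Sylow 5 G) = 21) (g : G) (hg : g ≠ 1) : fx g ≠ 21 := by
  intro h21
  have h1 : Nat.card (Sylow 5 G) ≠ 1 := by rw [h]; norm_num
  have hall : fixedBy (Sylow 5 G) g = Set.univ := by
    apply Set.eq_of_subset_of_ncard_le (Set.subset_univ _)
    rw [Set.ncard_univ, h, ← Nat.card_coe_set_eq]
    exact h21.ge
  apply hg
  apply faithful h1
  intro Q
  have : Q ∈ fixedBy (Sylow 5 G) g := by rw [hall]; trivial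
  exact this

theorem toPerm_inj (h : Nat.card (Sylow 5 G) = 21) :
    Function.Injective (MulAction.toPermHom G (Sylow 5 G)) := by
  have h1 : Nat.card (Sylow 5 G) ≠ 1 := by rw [h]; norm_num
  rw [injective_iff_map_eq_one]
  intro g hg
  apply faithful h1
  intro Q
  have := congrArg (fun τ : Equiv.Perm (Sylow 5 G) => τ Q) hg
  simpa using this

theorem fx_inv (h : Nat.card (Sylow 5 G) = 21) (g : G) (hg : orderOf g = 2) : fx g % 4 = 1 := by
  classical
  haveI : Fintype (Sylow 5 G) := Fintype.ofFinite _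
  have h1 : Nat.card (Sylow 5 G) ≠ 1 := by rw [h]; norm_num
  have hnc := not_comm_of_card_sylow h1
  have hf2 := card_modEq_card_fixedBy (α := Sylow 5 G) g hg
  rw [h] at hf2
  have hle := fx_le h g
  set σ : Equiv.Perm (Sylow 5 G) := MulAction.toPerm g with hσ
  have hord : orderOf σ = 2 := by
    have := orderOf_injective (MulAction.toPermHom G (Sylow 5 G)) (toPerm_inj h) g
    rw [hg] at this
    exact this
  have hs := sign_involution σ hord
  rw [sign_eq_one hnc] at hs
  have hfix : Fintype.card (Function.fixedPoints σ) = fx g := by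
    rw [← Nat.card_eq_fintype_card]
    rfl
  rw [hfix, ← Nat.card_eq_fintype_card, h] at hs
  have hf2' : 21 % 2 = fx g % 2 := hf2
  have heven : Even ((21 - fx g) / 2) := by
    by_contra hodd
    rw [Nat.not_even_iff_odd] at hodd
    rw [hodd.neg_one_pow] at hs
    exact absurd hs (by decide)
  obtain ⟨m, hm⟩ := heven
  omega

theorem no_order_four (h : Nat.card (Sylow 5 G) = 21) (x : G) (hx : orderOf x = 4)
    (hx2 : fx (x ^ 2) = 1) : False := by
  classical
  haveI : Fintype (Sylow 5 G) := Fintype.ofFinite _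
  have h1 : Nat.card (Sylow 5 G) ≠ 1 := by rw [h]; norm_num
  have hnc := not_comm_of_card_sylow h1
  have hf2 := card_modEq_card_fixedBy_pow (α := Sylow 5 G) (r := 2) (j := 2) x (by rw [hx]; norm_num)
  rw [h] at hf2
  have hf2' : 21 % 2 = fx x % 2 := hf2
  have hle := fx_le_pow x 2
  have hfx : fx x = 1 := by omega
  have hsub : fixedBy (Sylow 5 G) x ⊆ fixedBy (Sylow 5 G) (x ^ 2) := by
    intro y hy
    have : x ∈ stabilizer G y := hy
    exact (stabilizer G y).pow_mem this 2
  have heq : fixedBy (Sylow 5 G) x = fixedBy (Sylow 5 G) (x ^ 2) := by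
    apply Set.eq_of_subset_of_ncard_le hsub
    rw [← Nat.card_coe_set_eq, ← Nat.card_coe_set_eq]
    change fx (x ^ 2) ≤ fx x
    omega
  set σ : Equiv.Perm (Sylow 5 G) := MulAction.toPerm x with hσ
  have hord : orderOf σ = 4 := by
    have := orderOf_injective (MulAction.toPermHom G (Sylow 5 G)) (toPerm_inj h) x
    rw [hx] at this
    exact this
  have hs := sign_of_order_four σ hord (by
    intro y hy
    have hy' : y ∈ fixedBy (Sylow 5 G) (x ^ 2) := by
      change (x ^ 2) • y = y
      rw [sq, mul_smul]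
      rw [sq, Equiv.Perm.mul_apply] at hy
      exact hy
    rw [← heq] at hy'
    exact hy')
  rw [sign_eq_one hnc] at hs
  have hfix : Fintype.card (Function.fixedPoints σ) = fx x := by
    rw [← Nat.card_eq_fintype_card]
    rfl
  rw [hfix, ← Nat.card_eq_fintype_card, h, hfx] at hs
  revert hs
  decide

theorem card_P (h : Nat.card (Sylow 5 G) = 21) (P : Sylow 5 G) : Nat.card P = 5 := by
  have h1 : Nat.card (Sylow 5 G) ≠ 1 := by rw [h]; norm_num
  exact Cfsg.Agent.S4343.result (not_comm_of_card_sylow h1) 5 (dvd_card_of_card_sylow h1)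
    (by rw [h]; norm_num) P

theorem fx_five (h : Nat.card (Sylow 5 G) = 21) (g : G) (hg : orderOf g = 5) : fx g = 1 := by
  have hz : IsPGroup 5 (zpowers g) := by
    apply IsPGroup.of_card (n := 1)
    rw [Nat.card_zpowers, hg, pow_one]
  obtain ⟨Q, hQ⟩ := hz.exists_le_sylow
  have hg1 : g ≠ 1 := by
    intro h1; rw [h1, orderOf_one] at hg; norm_num at hg
  have := fixedBy_eq_singleton_of_mem Q (card_P h Q) g (hQ (Subgroup.mem_zpowers g)) hg1
  rw [fx, this]
  simp

end

section
variable {G : Type*} [Group G] [Finite G] [IsSimpleGroup G]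

theorem fx_mod5 (P : Sylow 5 G) (g : G) (hg : g ∈ centralizer ((P : Subgroup G) : Set G)) :
    fx g % 5 = 1 := card_fixedBy_modEq_one P g hg

theorem fx_two (h : Nat.card (Sylow 5 G) = 21) (P : Sylow 5 G) (g : G)
    (hg : g ∈ centralizer ((P : Subgroup G) : Set G)) (hg2 : orderOf g = 2) : fx g = 1 := by
  have h1 := fx_inv h g hg2
  have h2 := fx_mod5 P g hg
  have h3 := fx_le h g
  have h4 := fx_ne h g (by intro h1; rw [h1, orderOf_one] at hg2; norm_num at hg2)
  omega

theorem fx_U' (h : Nat.card (Sylow 5 G) = 21) (P : Sylow 5 G) (g : G)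
    (hg : g ∈ centralizer ((P : Subgroup G) : Set G)) (r : ℕ) (hr : r = 2 ∨ r = 5)
    (hrg : r ∣ orderOf g) : fx g = 1 := by
  have h0 : orderOf g ≠ 0 := (orderOf_pos g).ne'
  have h1 := orderOf_pow_orderOf_div h0 hrg
  have h2 := fx_le_pow g (orderOf g / r)
  have h3 : fx (g ^ (orderOf g / r)) = 1 := by
    rcases hr with rfl | rfl
    · exact fx_two h P _ (Subgroup.pow_mem _ hg _) h1
    · exact fx_five h _ h1
  have h4 := fx_mod5 P g hg
  omega

theorem fx_U (h : Nat.card (Sylow 5 G) = 21) (P : Sylow 5 G) (g : G)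
    (hg : g ∈ centralizer ((P : Subgroup G) : Set G)) (hg1 : g ≠ 1) (hg20 : g ^ 20 = 1) :
    fx g = 1 := by
  have h1 : orderOf g ∣ 20 := orderOf_dvd_of_pow_eq_one hg20
  have h2 : orderOf g ≠ 1 := by rwa [Ne, orderOf_eq_one_iff]
  have h3 := Nat.minFac_prime h2
  have h4 : (orderOf g).minFac ∣ 20 := (Nat.minFac_dvd _).trans h1
  have h5 : (orderOf g).minFac = 2 ∨ (orderOf g).minFac = 5 := by
    have h20 : (20 : ℕ) = 2 * 2 * 5 := by norm_num
    rw [h20] at h4
    rcases (Nat.Prime.dvd_mul h3).mp h4 with h6 | h6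
    · rcases (Nat.Prime.dvd_mul h3).mp h6 with h7 | h7
      · exact Or.inl ((Nat.prime_dvd_prime_iff_eq h3 (by norm_num)).mp h7)
      · exact Or.inl ((Nat.prime_dvd_prime_iff_eq h3 (by norm_num)).mp h7)
    · exact Or.inr ((Nat.prime_dvd_prime_iff_eq h3 (by norm_num)).mp h6)
  exact fx_U' h P g hg _ h5 (Nat.minFac_dvd _)

theorem fx_three (h : Nat.card (Sylow 5 G) = 21) (P : Sylow 5 G) (g : G)
    (hg : g ∈ centralizer ((P : Subgroup G) : Set G)) (hg1 : g ≠ 1) (j : ℕ)
    (hj : orderOf g = 3 ^ j) : fx g = 6 := by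
  have h1 := card_modEq_card_fixedBy_pow (α := Sylow 5 G) (r := 3) g hj
  rw [h] at h1
  have h1' : 21 % 3 = fx g % 3 := h1
  have h2 := fx_mod5 P g hg
  have h3 := fx_le h g
  have h4 := fx_ne h g hg1
  omega

theorem P_le_C (h : Nat.card (Sylow 5 G) = 21) (P : Sylow 5 G) :
    (P : Subgroup G) ≤ centralizer ((P : Subgroup G) : Set G) := by
  haveI : IsCyclic (P : Subgroup G) := isCyclic_of_prime_card (card_P h P)
  haveI : IsMulCommutative (P : Subgroup G) := ⟨⟨fun a b => IsCyclic.commGroup.mul_comm a b⟩⟩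
  exact Subgroup.le_centralizer _

theorem fact5_G (h : Nat.card (Sylow 5 G) = 21) : (Nat.card G).factorization 5 = 1 := by
  obtain ⟨P⟩ : Nonempty (Sylow 5 G) := inferInstance
  have h1 := P.card_eq_multiplicity
  rw [card_P h P] at h1
  have : (5 : ℕ) ^ 1 = 5 ^ (Nat.card G).factorization 5 := by rw [pow_one]; exact h1
  exact (Nat.pow_right_injective (le_refl 2 |>.trans (by norm_num)) this).symm

theorem card_C_dvd (h : Nat.card (Sylow 5 G) = 21) (P : Sylow 5 G) :
    Nat.card (centralizer ((P : Subgroup G) : Set G)) ∣ 60 := by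
  set C := centralizer ((P : Subgroup G) : Set G) with hC
  rw [Nat.dvd_iff_prime_pow_dvd_dvd]
  intro r k hr hrk
  rcases Nat.eq_zero_or_pos k with rfl | hk
  · simp
  haveI : Fact r.Prime := ⟨hr⟩
  have hrC : r ∣ Nat.card C := (dvd_pow_self r hk.ne').trans hrk
  obtain ⟨K, hK⟩ := Sylow.exists_subgroup_card_pow_prime r hrk
  set R : Subgroup G := K.map C.subtype with hR
  have hRC : R ≤ C := Subgroup.map_subtype_le _
  have hRcard : Nat.card R = r ^ k := by rw [hR, Subgroup.card_subtype, hK]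
  have hord : ∀ g ∈ R, ∃ j, orderOf g = r ^ j := by
    intro g hg
    have := R.orderOf_dvd_natCard hg
    rw [hRcard] at this
    obtain ⟨j, -, hj⟩ := (Nat.dvd_prime_pow hr).mp this
    exact ⟨j, hj⟩
  -- which primes
  obtain ⟨c, hc⟩ := exists_prime_orderOf_dvd_card' r hrC
  have hc' : orderOf (c : G) = r := by rw [Subgroup.orderOf_coe, hc]
  have hc1 : (c : G) ≠ 1 := by
    intro h1; rw [h1, orderOf_one] at hc'; exact hr.one_lt.ne hc'
  have hr235 : r = 2 ∨ r = 3 ∨ r = 5 := by
    have h1 := card_modEq_card_fixedBy (α := Sylow 5 G) (c : G) hc'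
    rw [h] at h1
    have h2 := fx_mod5 P c c.2
    have h3 := fx_le h (c : G)
    have h4 := fx_ne h (c : G) hc1
    have h5 : r ∣ 21 - fx (c : G) := (Nat.modEq_iff_dvd' h3).mp h1.symm
    have h6 : 21 - fx (c : G) ∣ 60 := by
      have : fx (c : G) = 1 ∨ fx (c : G) = 6 ∨ fx (c : G) = 11 ∨ fx (c : G) = 16 := by omega
      rcases this with h | h | h | h <;> rw [h] <;> norm_num
    have h7 : r ∣ 2 * 2 * 3 * 5 := h5.trans h6
    rcases (Nat.Prime.dvd_mul hr).mp h7 with h8 | h8
    · rcases (Nat.Prime.dvd_mul hr).mp h8 with h9 | h9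
      · rcases (Nat.Prime.dvd_mul hr).mp h9 with h10 | h10
        · exact Or.inl ((Nat.prime_dvd_prime_iff_eq hr (by norm_num)).mp h10)
        · exact Or.inl ((Nat.prime_dvd_prime_iff_eq hr (by norm_num)).mp h10)
      · exact Or.inr (Or.inl ((Nat.prime_dvd_prime_iff_eq hr (by norm_num)).mp h9))
    · exact Or.inr (Or.inr ((Nat.prime_dvd_prime_iff_eq hr (by norm_num)).mp h8))
  rcases hr235 with rfl | rfl | rfl
  · have h1 := card_dvd_of_const_fix (α := Sylow 5 G) R 1 (by
      intro g hg hg1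
      obtain ⟨j, hj⟩ := hord g hg
      have hj0 : j ≠ 0 := by
        rintro rfl
        rw [pow_zero, orderOf_eq_one_iff] at hj
        exact hg1 hj
      exact fx_U' h P g (hRC hg) 2 (Or.inl rfl) (by rw [hj]; exact dvd_pow_self 2 hj0))
      (by rw [h]; norm_num)
    rw [hRcard, h] at h1
    exact h1.trans (by norm_num)
  · have h1 := card_dvd_of_const_fix (α := Sylow 5 G) R 6 (by
      intro g hg hg1
      obtain ⟨j, hj⟩ := hord g hg
      exact fx_three h P g (hRC hg) hg1 j hj)
      (by rw [h]; norm_num)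
    rw [hRcard, h] at h1
    exact h1.trans (by norm_num)
  · have h1 : 5 ^ k ∣ Nat.card G := hrk.trans (Subgroup.card_subgroup_dvd_card _)
    have h2 := (hr.pow_dvd_iff_le_factorization Nat.card_pos.ne').mp h1
    rw [fact5_G h] at h2
    have : k = 1 := by omega
    subst this
    norm_num

theorem local_orders (h : Nat.card (Sylow 5 G) = 21) (P : Sylow 5 G) :
    ∃ c k : ℕ, Nat.card (centralizer ((P : Subgroup G) : Set G)) = 5 * c ∧ c ∣ 12 ∧
      (k = 2 ∨ k = 4) ∧
      (centralizer ((P : Subgroup G) : Set G)).relIndex (normalizer ((P : Subgroup G) : Set G)) = k ∧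
      Nat.card (normalizer ((P : Subgroup G) : Set G)) = 5 * c * k ∧
      Nat.card G = 105 * c * k := by
  set C := centralizer ((P : Subgroup G) : Set G) with hC
  set N := normalizer ((P : Subgroup G) : Set G) with hN
  have h5 : 5 ∣ Nat.card C := by
    have := Subgroup.card_dvd_of_le (P_le_C h P)
    rwa [show Nat.card (P : Subgroup G) = 5 from card_P h P] at this
  obtain ⟨c, hc⟩ := h5
  have h60 := card_C_dvd h P
  rw [← hC, hc] at h60
  have hc12 : c ∣ 12 := by
    have : 5 * c ∣ 5 * 12 := h60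
    exact Nat.dvd_of_mul_dvd_mul_left (by norm_num) this
  have hrel := relIndex_centralizer_normalizer_dvd (p := 5) (P : Subgroup G) (card_P h P)
  rw [← hC, ← hN] at hrel
  have hNcard : Nat.card C * C.relIndex N = Nat.card N :=
    card_mul_relIndex' C N (Subgroup.centralizer_le_normalizer _)
  have hG : Nat.card N * 21 = Nat.card G := by
    rw [← h, P.card_eq_index_normalizer]
    exact N.card_mul_index
  refine ⟨c, C.relIndex N, hc, hc12, ?_, rfl, by rw [← hNcard, hc], by rw [← hG, ← hNcard, hc]; ring⟩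
  have hk4 : C.relIndex N ∣ 4 := hrel
  have hkle : C.relIndex N ≤ 4 := Nat.le_of_dvd (by norm_num) hk4
  have hk1 : C.relIndex N ≠ 1 := by
    intro h1
    have hNC : N ≤ C := Subgroup.relIndex_eq_one.mp h1
    have := card_eq_of_normalizer_le_centralizer 5 P (by rw [card_P h P]; norm_num) hNC
    rw [card_P h P] at this
    have hpos : 0 < Nat.card N := Nat.card_pos
    omega
  generalize C.relIndex N = k at *
  interval_cases k
  · simp at hk4
  · exact absurd rfl hk1
  · exact Or.inl rfl
  · norm_num at hk4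
  · exact Or.inr rfl

end

end Cfsg.Agent.Lib.Helper63Syl21a
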