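import Mathlib
import Cfsg.Agent.Lib.Helper63Syl22a

set_option autoImplicit false
set_option linter.style.haveILetI false
set_option linter.unusedSectionVars false

namespace Cfsg.Agent.Lib.Helper63Syl22b

open Subgroup MulAction Cfsg.Agent.Lib.Helper63SylowNum Cfsg.Agent.Lib.Helper63SylowNum2
  Cfsg.Agent.Lib.Helper63SylowNum3 Cfsg.Agent.Lib.Helper76SylowCount
  Cfsg.Agent.Lib.Helper63Syl22a

section General
variable {G : Type*} [Group G] [Finite G] {p : ℕ} [Fact p.Prime]

theorem le_normalizer_of_relIndex (R : Sylow p G) (D : Subgroup G) (hle : D ≤ R)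
    (hidx : D.relIndex R = p) : (R : Subgroup G) ≤ normalizer (D : Set G) := by
  have hp1 : p.Prime := Fact.out
  rw [← Subgroup.normal_subgroupOf_iff_le_normalizer hle]
  apply Subgroup.normal_of_index_eq_minFac_card
  obtain ⟨n, hn'⟩ := IsPGroup.iff_card.mp R.2
  have hn0 : n ≠ 0 := by
    rintro rfl
    have h1 : D.relIndex R ∣ Nat.card R := Subgroup.relIndex_dvd_card D R
    rw [hidx, hn', pow_zero] at h1
    exact hp1.one_lt.ne' (Nat.dvd_one.mp h1)
  rw [hn', hp1.pow_minFac hn0]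
  exact hidx

/-- if all Sylow intersections have index `p`, a simple group has Sylow subgroups of order `p` -/
theorem brodkey [IsSimpleGroup G] (h1 : Nat.card (Sylow p G) ≠ 1)
    (hidx : ∀ R R' : Sylow p G, R ≠ R' → (R' : Subgroup G).relIndex R = p) (P : Sylow p G) :
    Nat.card P = p := by
  classical
  obtain ⟨Q, hQ⟩ : ∃ Q : Sylow p G, Q ≠ P := by
    by_contra hcon
    push Not at hcon
    apply h1
    rw [Nat.card_eq_one_iff_unique]
    exact ⟨⟨fun a b => (hcon a).trans (hcon b).symm⟩, ⟨P⟩⟩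
  set D : Subgroup G := (P : Subgroup G) ⊓ Q with hD
  have hDP : D.relIndex P = p := by
    rw [hD, Subgroup.inf_relIndex_left]; exact hidx P Q hQ.symm
  have hDQ : D.relIndex Q = p := by
    rw [hD, Subgroup.inf_relIndex_right]; exact hidx Q P hQ
  have hPN := le_normalizer_of_relIndex P D inf_le_left hDP
  have hQN := le_normalizer_of_relIndex Q D inf_le_right hDQ
  set N : Subgroup G := Subgroup.normalizer (D : Set G) with hN
  have hall : ∀ R : Sylow p G, D ≤ R := by
    intro R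
    have hpg : IsPGroup p ((R : Subgroup G).subgroupOf N) :=
      R.2.comap_of_injective N.subtype N.subtype_injective
    obtain ⟨T, hT⟩ := hpg.exists_le_sylow
    obtain ⟨n, hn'⟩ := MulAction.exists_smul_eq N T (P.subtype hPN)
    have hRQ : (((n : G) • R : Sylow p G) : Subgroup G) ⊓ Q ≤ D := by
      rintro y ⟨hy1, hy2⟩
      refine ⟨?_, hy2⟩
      have hy1' : (n : G)⁻¹ * y * n ∈ R := (mem_smul_sylow _ _ _).mp hy1
      have hyN : y ∈ N := hQN hy2
      have h1 : (n⁻¹ * ⟨y, hyN⟩ * n : N) ∈ T := hT (Subgroup.mem_subgroupOf.mpr hy1')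
      have h2 : (⟨y, hyN⟩ : N) ∈ n • T := (mem_smul_sylow _ _ _).mpr h1
      rw [hn'] at h2
      exact Subgroup.mem_subgroupOf.mp h2
    have hne : ((n : G) • R : Sylow p G) ≠ Q := by
      intro heq
      rw [heq, inf_idem] at hRQ
      have : (Q : Subgroup G) ≤ P := hRQ.trans inf_le_left
      exact hQ (sylow_eq_of_le Q P this)
    have heq : (((n : G) • R : Sylow p G) : Subgroup G) ⊓ Q = D := by
      apply Cfsg.Agent.S4343.eq_of_le_of_relIndex_eq hRQ inf_le_right
      rw [Subgroup.inf_relIndex_right, hDQ]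
      exact hidx Q _ hne.symm
    intro d hd
    have h1 : (n : G) * d * (n : G)⁻¹ ∈ D := (n.2 d).mp hd
    rw [← heq] at h1
    have h2 := (mem_smul_sylow _ _ _).mp h1.1
    have h3 : d ∈ R := by simpa [mul_assoc] using h2
    exact h3
  have hDbot : D = ⊥ := by
    rw [eq_bot_iff]
    intro d hd
    rw [Subgroup.mem_bot]
    apply faithful h1
    intro R
    exact smul_eq_self_of_mem R d (hall R hd)
  rw [hDbot, Subgroup.relIndex_bot_left] at hDP
  exact hDP

end General

section
variable {G : Type*} [Group G] [Finite G]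

/-- `|P : P ∩ Q|` -/
noncomputable def dd (P Q : Sylow 3 G) : ℕ := (Q : Subgroup G).relIndex P

theorem dd_cases (h : Nat.card (Sylow 3 G) = 22) (P Q : Sylow 3 G) :
    dd P Q = 1 ∨ dd P Q = 3 ∨ dd P Q = 9 := by
  obtain ⟨n, hn⟩ := relIndex_pow (p := 3) (P : Subgroup G) P.2 (Q : Subgroup G)
  have h1 := Cfsg.Agent.S4343.relIndex_le_card P Q
  rw [h] at h1
  unfold dd
  rw [hn] at h1 ⊢
  have h2 : n < 3 := by
    by_contra hcon
    have : 3 ^ 3 ≤ 3 ^ n := Nat.pow_le_pow_right (by norm_num) (by omega)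
    omega
  interval_cases n <;> simp

theorem dd_self (P : Sylow 3 G) : dd P P = 1 := (d_eq_one_iff P P).mpr rfl

theorem dd_symm (P Q : Sylow 3 G) : dd P Q = dd Q P := d_symm P Q

theorem dd_smul (g : G) (P Q : Sylow 3 G) : dd (g • P) (g • Q) = dd P Q := d_smul g P Q

theorem dd_smul_of_mem (g : G) (P Q : Sylow 3 G)
    (hg : g ∈ normalizer ((P : Subgroup G) : Set G)) : dd P (g • Q) = dd P Q := by
  have h1 : g • P = P := Sylow.smul_eq_iff_mem_normalizer.mpr hg
  conv_lhs => rw [← h1]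
  exact dd_smul g P Q

theorem card_inf_mul_dd (P Q : Sylow 3 G) :
    Nat.card ((P : Subgroup G) ⊓ Q : Subgroup G) * dd P Q = Nat.card P := by
  have h1 := card_mul_relIndex' ((P : Subgroup G) ⊓ Q) P inf_le_left
  rwa [Subgroup.inf_relIndex_left] at h1

/-- Sylow subgroups at "distance" `k` -/
def AA (k : ℕ) (P : Sylow 3 G) : Set (Sylow 3 G) := {R | dd P R = k}

theorem mem_AA (k : ℕ) (P R : Sylow 3 G) : R ∈ AA k P ↔ dd P R = k := Iff.rfl

theorem AA_inv (k : ℕ) (P : Sylow 3 G) (g : G)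
    (hg : g ∈ normalizer ((P : Subgroup G) : Set G)) (R : Sylow 3 G) (hR : R ∈ AA k P) :
    g • R ∈ AA k P := by
  rw [mem_AA] at hR ⊢
  rw [dd_smul_of_mem g P R hg, hR]

theorem dvd_card_AA (k : ℕ) (P : Sylow 3 G) : k ∣ Nat.card (AA k P) := by
  apply dvd_card_of_relIndex (P : Subgroup G) (AA k P)
  · intro a ha x hx
    exact AA_inv k P a (Subgroup.le_normalizer ha) x hx
  · intro x hx
    rw [relIndex_stabilizer (P : Subgroup G) P.2 x]
    rw [mem_AA] at hx
    exact hx ▸ dvd_rfl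

theorem card_AA_eq (k : ℕ) (P Q : Sylow 3 G) : Nat.card (AA k P) = Nat.card (AA k Q) := by
  obtain ⟨g, rfl⟩ := MulAction.exists_smul_eq G P Q
  refine Nat.card_congr ⟨fun R => ⟨g • R.1, ?_⟩, fun R => ⟨g⁻¹ • R.1, ?_⟩, ?_, ?_⟩
  · have := R.2
    rw [mem_AA] at this ⊢
    rw [dd_smul, this]
  · have := R.2
    rw [mem_AA] at this ⊢
    rw [← dd_smul g, smul_inv_smul, this]
  · intro R; simp
  · intro R; simp

theorem card_sum (h : Nat.card (Sylow 3 G) = 22) (P : Sylow 3 G) :
    Nat.card (AA 3 P) + Nat.card (AA 9 P) = 21 := by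
  classical
  haveI : Fintype (Sylow 3 G) := Fintype.ofFinite _
  have h1 := Finset.card_eq_sum_card_fiberwise (f := dd P) (s := Finset.univ)
    (t := ({1, 3, 9} : Finset ℕ)) (fun Q _ => by
      have := dd_cases h P Q
      simp only [Finset.coe_insert, Finset.coe_singleton, Set.mem_insert_iff,
        Set.mem_singleton_iff]
      exact this)
  rw [Finset.card_univ, ← Nat.card_eq_fintype_card, h] at h1
  rw [Finset.sum_insert (by simp), Finset.sum_insert (by simp), Finset.sum_singleton] at h1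
  have h2 : ∀ k, Nat.card (AA k P) = (Finset.univ.filter (fun Q => dd P Q = k)).card := by
    intro k
    exact Nat.subtype_card _ (by intro x; simp [AA])
  have h3 : (Finset.univ.filter (fun Q => dd P Q = 1)).card = 1 := by
    rw [Finset.card_eq_one]
    refine ⟨P, ?_⟩
    ext Q
    simp only [Finset.mem_filter, Finset.mem_univ, true_and, Finset.mem_singleton]
    constructor
    · intro hQ; exact ((d_eq_one_iff P Q).mp hQ).symm
    · rintro rfl; exact dd_self _
  rw [h2, h2]
  omega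

theorem orbit_eq_AA (k : ℕ) (P R : Sylow 3 G) (hR : R ∈ AA k P) (hk : Nat.card (AA k P) = k) :
    orbit (P : Subgroup G) R = AA k P := by
  apply Set.eq_of_subset_of_ncard_le
  · rintro _ ⟨a, rfl⟩
    exact AA_inv k P a (Subgroup.le_normalizer a.2) R hR
  · rw [← Nat.card_coe_set_eq, ← Nat.card_coe_set_eq, card_orbit (P : Subgroup G) P.2 R, hk]
    exact hR.ge
  · exact Set.toFinite _

end

section Cases
variable {G : Type*} [Group G] [Finite G] [IsSimpleGroup G]

theorem case0 (h : Nat.card (Sylow 3 G) = 22) (P : Sylow 3 G) (h0 : Nat.card (AA 9 P) = 0) :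
    Nat.card P = 3 := by
  apply brodkey (ne_one h)
  intro R R' hne
  have h1 : Nat.card (AA 9 R) = 0 := by rw [card_AA_eq 9 R P, h0]
  rcases dd_cases h R R' with h2 | h2 | h2
  · exact absurd ((d_eq_one_iff R R').mp h2) hne
  · exact h2
  · exfalso
    have : 0 < Nat.card (AA 9 R) := Nat.card_pos_iff.mpr ⟨⟨⟨R', h2⟩⟩, inferInstance⟩
    omega

theorem inf_relIndex_left' (P Q : Sylow 3 G) :
    ((P : Subgroup G) ⊓ Q).relIndex P = dd P Q := Subgroup.inf_relIndex_left _ _

theorem inf_relIndex_right' (P Q : Sylow 3 G) :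
    ((P : Subgroup G) ⊓ Q).relIndex Q = dd P Q := by
  rw [dd_symm]; exact Subgroup.inf_relIndex_right _ _

theorem case18 (h : Nat.card (Sylow 3 G) = 22) (P : Sylow 3 G) (h0 : Nat.card (AA 9 P) = 18) :
    False := by
  have h3 : Nat.card (AA 3 P) = 3 := by have := card_sum h P; omega
  obtain ⟨⟨Q, hQ⟩⟩ : Nonempty (AA 3 P) := (Nat.card_pos_iff.mp (by omega)).1
  obtain ⟨⟨R, hR⟩⟩ : Nonempty (AA 9 P) := (Nat.card_pos_iff.mp (by omega)).1
  have horb := orbit_eq_AA 3 P Q hQ h3
  set D : Subgroup G := (P : Subgroup G) ⊓ Q with hD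
  have hPN := le_normalizer_of_relIndex P D inf_le_left (by rw [hD, inf_relIndex_left']; exact hQ)
  have hQN := le_normalizer_of_relIndex Q D inf_le_right
    (by rw [hD, inf_relIndex_right']; exact hQ)
  have hNN : normalizer ((P : Subgroup G) : Set G) ≤ normalizer (D : Set G) := by
    apply le_normalizer_of_conj_mem
    intro n hn x hx
    refine ⟨(hn x).mp hx.1, ?_⟩
    have h4 : n⁻¹ • Q ∈ AA 3 P := AA_inv 3 P n⁻¹ (Subgroup.inv_mem _ hn) Q hQ
    rw [← horb] at h4
    obtain ⟨a, ha⟩ := h4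
    have ha' : (a : G) • Q = n⁻¹ • Q := ha
    have h5 : (a : G)⁻¹ * x * a ∈ D := by
      have := ((Subgroup.inv_mem _ (hPN a.2)) x).mp hx
      simpa using this
    have h6 : x ∈ (a : G) • Q := (mem_smul_sylow _ _ _).mpr h5.2
    rw [ha'] at h6
    have h7 := (mem_smul_sylow _ _ _).mp h6
    simpa using h7
  have hne : Q ≠ P := by
    rintro rfl
    rw [mem_AA, dd_self] at hQ
    omega
  have htop := gen_top h P Q hne _ hNN hQN
  have hbot := eq_bot_of_normalizer h P D inf_le_left htop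
  have h5 := card_inf_mul_dd P Q
  rw [← hD, hbot, Subgroup.card_bot, one_mul, show dd P Q = 3 from hQ] at h5
  have h6 := card_inf_mul_dd P R
  rw [show dd P R = 9 from hR, ← h5] at h6
  omega

/-- setwise stabilizer -/
def stab (A : Set (Sylow 3 G)) : Subgroup G where
  carrier := {g | ∀ T, T ∈ A ↔ g • T ∈ A}
  one_mem' := by intro T; simp
  mul_mem' := by
    intro a b ha hb T
    rw [mul_smul]
    exact (hb T).trans (ha _)
  inv_mem' := by
    intro a ha T
    have := ha (a⁻¹ • T)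
    rw [smul_inv_smul] at this
    exact this.symm

theorem normalizer_le_stab (k : ℕ) (P : Sylow 3 G) :
    normalizer ((P : Subgroup G) : Set G) ≤ stab (AA k P) := by
  intro n hn T
  rw [mem_AA, mem_AA, dd_smul_of_mem n P T hn]

theorem key9 (h : Nat.card (Sylow 3 G) = 22) (h9 : ∀ P : Sylow 3 G, Nat.card (AA 9 P) = 9)
    (P Q R : Sylow 3 G) (hQ : Q ∈ AA 3 P) (hR : R ∈ AA 9 P) : (P : Subgroup G) ⊓ R ≤ Q := by
  set D : Subgroup G := (P : Subgroup G) ⊓ Q with hD
  set F : Subgroup G := (P : Subgroup G) ⊓ R with hF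
  have hDp : IsPGroup 3 D := P.2.to_le inf_le_left
  obtain ⟨n, hn⟩ := relIndex_pow (p := 3) D hDp (R : Subgroup G)
  have hoD := card_orbit D hDp R
  have hoP := card_orbit (P : Subgroup G) P.2 R
  have hsubP : orbit D R ⊆ orbit (P : Subgroup G) R := by
    rintro _ ⟨a, rfl⟩; exact ⟨⟨a, a.2.1⟩, rfl⟩
  have hsubQ : orbit D R ⊆ orbit (Q : Subgroup G) R := by
    rintro _ ⟨a, rfl⟩; exact ⟨⟨a, a.2.2⟩, rfl⟩
  have hR9 : (R : Subgroup G).relIndex P = 9 := hR
  have hle : (R : Subgroup G).relIndex D ≤ 9 := by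
    have := Nat.card_mono (Set.toFinite _) hsubP
    rwa [hoD, hoP, hR9] at this
  have hne : Q ≠ P := by
    rintro rfl
    rw [mem_AA, dd_self] at hQ
    omega
  by_cases h9' : (R : Subgroup G).relIndex D = 9
  · exfalso
    have e1 : orbit D R = orbit (P : Subgroup G) R :=
      Set.eq_of_subset_of_ncard_le hsubP (by
        rw [← Nat.card_coe_set_eq, ← Nat.card_coe_set_eq, hoD, hoP, h9', hR9]) (Set.toFinite _)
    have e2 := orbit_eq_AA 9 P R hR (h9 P)
    have hoQ := card_orbit (Q : Subgroup G) Q.2 R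
    have hQR : dd Q R = 9 := by
      have h1 := Nat.card_mono (Set.toFinite _) hsubQ
      rw [hoD, hoQ, h9'] at h1
      have h2 : 9 ≤ dd Q R := h1
      rcases dd_cases h Q R with h3 | h3 | h3 <;> omega
    have e3 : orbit D R = orbit (Q : Subgroup G) R :=
      Set.eq_of_subset_of_ncard_le hsubQ (by
        rw [← Nat.card_coe_set_eq, ← Nat.card_coe_set_eq, hoD, hoQ, h9']
        exact hQR.le) (Set.toFinite _)
    have e4 := orbit_eq_AA 9 Q R hQR (h9 Q)
    have hA : AA 9 P = AA 9 Q := by rw [← e2, ← e1, e3, e4]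
    have htop := gen_top h P Q hne (stab (AA 9 P)) (normalizer_le_stab 9 P)
      (Subgroup.le_normalizer.trans (hA ▸ normalizer_le_stab 9 Q))
    obtain ⟨g, hg⟩ := MulAction.exists_smul_eq G R P
    have h1 : g ∈ stab (AA 9 P) := htop ▸ Subgroup.mem_top g
    have h2 := (h1 R).mp hR
    rw [hg, mem_AA, dd_self] at h2
    omega
  · have hd3 : (R : Subgroup G).relIndex D ≤ 3 := by
      rw [hn] at hle h9' ⊢
      have h2 : n < 3 := by
        by_contra hcon
        have : 3 ^ 3 ≤ 3 ^ n := Nat.pow_le_pow_right (by norm_num) (by omega)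
        omega
      interval_cases n <;> simp_all
    have c1 := card_mul_relIndex' (D ⊓ R) D inf_le_left
    rw [Subgroup.inf_relIndex_left] at c1
    have c2 := card_inf_mul_dd P Q
    have c3 := card_inf_mul_dd P R
    rw [show dd P Q = 3 from hQ, ← hD] at c2
    rw [show dd P R = 9 from hR, ← hF] at c3
    have hle' : D ⊓ R ≤ F := inf_le_inf_right _ inf_le_left
    have heq : D ⊓ R = F := by
      apply Subgroup.eq_of_le_of_card_ge hle'
      have := Nat.mul_le_mul_left (Nat.card (D ⊓ R : Subgroup G)) hd3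
      omega
    calc F = D ⊓ R := heq.symm
      _ ≤ D := inf_le_left
      _ ≤ Q := inf_le_right

theorem case9 (h : Nat.card (Sylow 3 G) = 22) (P : Sylow 3 G) (h0 : Nat.card (AA 9 P) = 9) :
    Nat.card P = 9 := by
  have h9 : ∀ P' : Sylow 3 G, Nat.card (AA 9 P') = 9 := fun P' => by rw [card_AA_eq 9 P' P, h0]
  have h3 : Nat.card (AA 3 P) = 12 := by have := card_sum h P; omega
  obtain ⟨⟨Q0, hQ0⟩⟩ : Nonempty (AA 3 P) := (Nat.card_pos_iff.mp (by omega)).1
  obtain ⟨⟨R0, hR0⟩⟩ : Nonempty (AA 9 P) := (Nat.card_pos_iff.mp (by omega)).1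
  set E : Subgroup G := (P : Subgroup G) ⊓ ⨅ (Q : Sylow 3 G) (_ : Q ∈ AA 3 P), (Q : Subgroup G)
    with hE
  have hEP : E ≤ P := inf_le_left
  have hEQ : ∀ Q ∈ AA 3 P, E ≤ Q := fun Q hQ => inf_le_right.trans (iInf₂_le Q hQ)
  have hFE : ∀ R ∈ AA 9 P, (P : Subgroup G) ⊓ R ≤ E := fun R hR =>
    le_inf inf_le_left (le_iInf₂ fun Q hQ => key9 h h9 P Q R hQ hR)
  have hNN : normalizer ((P : Subgroup G) : Set G) ≤ normalizer (E : Set G) := by
    apply le_normalizer_of_conj_mem
    intro n hn x hx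
    refine ⟨(hn x).mp hx.1, ?_⟩
    change n * x * n⁻¹ ∈ (⨅ (Q : Sylow 3 G) (_ : Q ∈ AA 3 P), (Q : Subgroup G) : Subgroup G)
    simp only [Subgroup.mem_iInf]
    intro Q hQ
    have h4 : n⁻¹ • Q ∈ AA 3 P := AA_inv 3 P n⁻¹ (Subgroup.inv_mem _ hn) Q hQ
    have h6 : x ∈ n⁻¹ • Q := hEQ _ h4 hx
    have h7 := (mem_smul_sylow _ _ _).mp h6
    have h8 : n * x * n⁻¹ ∈ Q := by simpa using h7
    exact h8
  have m1 := Subgroup.relIndex_mul_relIndex ((P : Subgroup G) ⊓ R0) E P (hFE R0 hR0) hEP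
  have m2 := Subgroup.relIndex_mul_relIndex E ((P : Subgroup G) ⊓ Q0) P
    (le_inf hEP (hEQ Q0 hQ0)) inf_le_left
  rw [inf_relIndex_left', show dd P R0 = 9 from hR0] at m1
  rw [inf_relIndex_left', show dd P Q0 = 3 from hQ0] at m2
  have cE := card_mul_relIndex' E P hEP
  have c3 := card_inf_mul_dd P R0
  rw [show dd P R0 = 9 from hR0] at c3
  have he : E.relIndex P = 3 ∨ E.relIndex P = 9 := by
    have h1 : E.relIndex P ∣ 9 := Dvd.intro_left _ m1
    have h2 : 3 ∣ E.relIndex P := Dvd.intro_left _ m2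
    have h4 : E.relIndex P ≤ 9 := Nat.le_of_dvd (by norm_num) h1
    clear m1 m2 cE
    generalize E.relIndex P = e at h1 h2 h4 ⊢
    interval_cases e <;> first | omega | (exfalso; revert h1; norm_num)
  rcases he with he | he
  · exfalso
    have heq : E = (P : Subgroup G) ⊓ Q0 := by
      apply Cfsg.Agent.S4343.eq_of_le_of_relIndex_eq (le_inf hEP (hEQ Q0 hQ0)) inf_le_left
      rw [he, inf_relIndex_left']
      exact (show dd P Q0 = 3 from hQ0).symm
    have hQN := le_normalizer_of_relIndex Q0 E (hEQ Q0 hQ0)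
      (by rw [heq, inf_relIndex_right']; exact hQ0)
    have hne : Q0 ≠ P := by
      rintro rfl
      rw [mem_AA, dd_self] at hQ0
      omega
    have htop := gen_top h P Q0 hne _ hNN hQN
    have hbot := eq_bot_of_normalizer h P E hEP htop
    rw [hbot, Subgroup.card_bot, one_mul, ← hbot, he] at cE
    have cE' : 3 = Nat.card P := cE
    omega
  · have hall : ∀ T : Sylow 3 G, E ≤ T := by
      intro T
      rcases dd_cases h P T with h1 | h1 | h1
      · rw [← (d_eq_one_iff P T).mp h1]; exact hEP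
      · exact hEQ T h1
      · have heq : (P : Subgroup G) ⊓ T = E := by
          apply Cfsg.Agent.S4343.eq_of_le_of_relIndex_eq (hFE T h1) hEP
          rw [he, inf_relIndex_left']
          exact h1
        rw [← heq]; exact inf_le_right
    have hbot : E = ⊥ := by
      rw [eq_bot_iff]
      intro d hd
      rw [Subgroup.mem_bot]
      apply faithful (ne_one h)
      intro R
      exact smul_eq_self_of_mem R d (hall R hd)
    rw [hbot, Subgroup.card_bot, one_mul, ← hbot, he] at cE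
    exact cE.symm

theorem structure_thm (h : Nat.card (Sylow 3 G) = 22) (P : Sylow 3 G) :
    Nat.card P = 3 ∨ (Nat.card P = 9 ∧ Nat.card (AA 9 P) = 9 ∧ Nat.card (AA 3 P) = 12) := by
  have h1 := dvd_card_AA 9 P
  have h2 := card_sum h P
  obtain ⟨k, hk⟩ := h1
  have h3 : k = 0 ∨ k = 1 ∨ k = 2 := by omega
  rcases h3 with rfl | rfl | rfl
  · left; exact case0 h P (by omega)
  · right; exact ⟨case9 h P (by omega), by omega, by omega⟩
  · exact (case18 h P (by omega)).elim

end Cases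

end Cfsg.Agent.Lib.Helper63Syl22b
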