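import Mathlib
import Cfsg.Agent.Lib.Helper63Syl22b

set_option autoImplicit false
set_option linter.style.haveILetI false
set_option linter.unusedSectionVars false

namespace Cfsg.Agent.Lib.Helper63Syl22c

open Subgroup MulAction Cfsg.Agent.Lib.Helper63SylowNum Cfsg.Agent.Lib.Helper63SylowNum2
  Cfsg.Agent.Lib.Helper63SylowNum3 Cfsg.Agent.Lib.Helper76SylowCount
  Cfsg.Agent.Lib.Helper63Syl22a Cfsg.Agent.Lib.Helper63Syl22b

section
variable {G : Type*} [Group G] [Finite G]

theorem sq_mem_centralizer (Q : Subgroup G) (hQ : Nat.card Q = 3) (g : G)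
    (hg : g ∈ normalizer (Q : Set G)) : g ^ 2 ∈ centralizer (Q : Set G) := by
  have h1 := relIndex_centralizer_normalizer_dvd (p := 3) Q hQ
  have h2 : (centralizer (Q : Set G)).relIndex (normalizer (Q : Set G)) ≤ 2 :=
    Nat.le_of_dvd (by norm_num) h1
  have h3 : (centralizer (Q : Set G)).relIndex (normalizer (Q : Set G)) ≠ 0 :=
    Subgroup.index_ne_zero_of_finite
  have := Subgroup.pow_mem_of_relIndex_ne_zero_of_dvd h3 hg (n := 2) (by
    intro m hm hle
    have : m ≤ 2 := hle.trans h2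
    interval_cases m <;> norm_num)
  exact this.1

theorem mem_centralizer_of_odd (Q : Subgroup G) (hQ : Nat.card Q = 3) (g : G)
    (hg : g ∈ normalizer (Q : Set G)) (hodd : Odd (orderOf g)) : g ∈ centralizer (Q : Set G) := by
  obtain ⟨k, hk⟩ := hodd
  have h1 := Subgroup.pow_mem _ (sq_mem_centralizer Q hQ g hg) (k + 1)
  have h2 : (g ^ 2) ^ (k + 1) = g := by
    rw [← pow_mul, show 2 * (k + 1) = orderOf g + 1 by omega, pow_succ, pow_orderOf_eq_one, one_mul]
  rwa [h2] at h1

variable [IsSimpleGroup G]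

theorem fxC (h : Nat.card (Sylow 3 G) = 22) (P : Sylow 3 G) (g : G)
    (hg : g ∈ centralizer ((P : Subgroup G) : Set G)) (hg1 : g ≠ 1) :
    fx g % 3 = 1 ∧ fx g < 22 := by
  have h1 := fx_mod3 P g hg
  have h2 := fx_le h g
  have h3 := fx_ne h g hg1
  omega

theorem fxC_seven (h : Nat.card (Sylow 3 G) = 22) (P : Sylow 3 G) (g : G)
    (hg : g ∈ centralizer ((P : Subgroup G) : Set G)) (hg1 : g ≠ 1) (j : ℕ)
    (hj : orderOf g = 7 ^ j) : fx g = 1 := by
  have h1 := fxC h P g hg hg1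
  have h2 := fx_mod h g 7 j hj
  omega

theorem fxC_five (h : Nat.card (Sylow 3 G) = 22) (P : Sylow 3 G) (g : G)
    (hg : g ∈ centralizer ((P : Subgroup G) : Set G)) (hj : orderOf g = 5) : fx g = 7 := by
  have h1 := fxC h P g hg (by rintro rfl; simp at hj)
  have h2 := fx_mod h g 5 1 (by rw [hj, pow_one])
  omega

theorem fxC_two (h : Nat.card (Sylow 3 G) = 22) (P : Sylow 3 G) (g : G)
    (hg : g ∈ centralizer ((P : Subgroup G) : Set G)) (hj : orderOf g = 2) : fx g = 10 := by
  have h1 := fxC h P g hg (by rintro rfl; simp at hj)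
  have h2 := fx_inv h g hj
  omega

theorem fxC_two_pow (h : Nat.card (Sylow 3 G) = 22) (P : Sylow 3 G) (g : G)
    (hg : g ∈ centralizer ((P : Subgroup G) : Set G)) (hg1 : g ≠ 1) (j : ℕ)
    (hj : orderOf g = 2 ^ j) : fx g = 4 ∨ fx g = 10 := by
  have h1 := fxC h P g hg hg1
  have h2 := fx_mod h g 2 j hj
  have hj0 : j ≠ 0 := by
    rintro rfl
    rw [pow_zero, orderOf_eq_one_iff] at hj
    exact hg1 hj
  have h3 : 2 ∣ orderOf g := by rw [hj]; exact dvd_pow_self 2 hj0
  have h4 := orderOf_pow_orderOf_div (orderOf_pos g).ne' h3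
  have h5 := fxC_two h P _ (Subgroup.pow_mem _ hg _) h4
  have h6 := fx_le_pow g (orderOf g / 2)
  omega

theorem fx_seven (h : Nat.card (Sylow 3 G) = 22) (h3 : ∀ P : Sylow 3 G, Nat.card P = 3) (w : G)
    (hw : orderOf w = 7) : fx w = 1 := by
  have h2 := fx_mod h w 7 1 (by rw [hw, pow_one])
  obtain ⟨Q, hQ⟩ := exists_fixed w (by omega)
  have h4 := mem_centralizer_of_odd (Q : Subgroup G) (h3 Q) w hQ (by rw [hw]; decide)
  exact fxC_seven h Q w h4 (by rintro rfl; simp at hw) 1 (by rw [hw, pow_one])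

theorem no_five (h : Nat.card (Sylow 3 G) = 22) (h3 : ∀ P : Sylow 3 G, Nat.card P = 3)
    (P : Sylow 3 G) (y : G) (hy : y ∈ centralizer ((P : Subgroup G) : Set G))
    (hy5 : orderOf y = 5) : False := by
  have hf := fxC_five h P y hy hy5
  set K : Subgroup G := centralizer ({y} : Set G) with hK
  have hKmem : ∀ k, k ∈ K ↔ y * k = k * y := by
    intro k
    rw [hK, Subgroup.mem_centralizer_iff]
    simp
  have hinv : ∀ k ∈ K, ∀ Q ∈ fixedBy (Sylow 3 G) y, k • Q ∈ fixedBy (Sylow 3 G) y := by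
    intro k hk Q hQ
    have hQ' : y • Q = Q := hQ
    change y • k • Q = k • Q
    rw [smul_smul, (hKmem k).mp hk, mul_smul, hQ']
  have h7 : 7 ∣ Nat.card K := by
    have := card_dvd_of_le K (fixedBy (Sylow 3 G) y) (by
      intro Q hQ q hq
      have h1 := mem_centralizer_of_odd (Q : Subgroup G) (h3 Q) y ((mem_fixedBy_iff y Q).mp hQ)
        (by rw [hy5]; decide)
      rw [hKmem]
      exact ((Subgroup.mem_centralizer_iff.mp h1) q hq).symm) hinv
      ⟨P, (mem_fixedBy_iff y P).mpr (Subgroup.centralizer_le_normalizer _ hy)⟩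
    rwa [show Nat.card (fixedBy (Sylow 3 G) y) = 7 from hf] at this
  obtain ⟨w, hw⟩ := exists_prime_orderOf_dvd_card' 7 h7
  have hw' : orderOf (w : G) = 7 := by rw [Subgroup.orderOf_coe, hw]
  have hfw := fx_seven h h3 (w : G) hw'
  have hz : IsPGroup 7 (zpowers (w : G)) := by
    apply IsPGroup.of_card (n := 1)
    rw [Nat.card_zpowers, hw', pow_one]
  have hzK : zpowers (w : G) ≤ K := by rw [Subgroup.zpowers_le]; exact w.2
  have h1 := card_inv_set_modEq (α := Sylow 3 G) (p := 7) (zpowers (w : G)) hz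
    (fixedBy (Sylow 3 G) y) (fun a ha Q hQ => hinv a (hzK ha) Q hQ)
  rw [show Nat.card (fixedBy (Sylow 3 G) y) = 7 from hf] at h1
  obtain ⟨hsub, ⟨Q0, hQ0⟩⟩ := Nat.card_eq_one_iff_unique.mp hfw
  have hQ0' : (w : G) • Q0 = Q0 := hQ0
  have hyQ0 : y • Q0 = Q0 := by
    have h2 : y • Q0 ∈ fixedBy (Sylow 3 G) (w : G) := by
      change (w : G) • y • Q0 = y • Q0
      rw [smul_smul, ← (hKmem w).mp w.2, mul_smul, hQ0']
    have := hsub.elim ⟨y • Q0, h2⟩ ⟨Q0, hQ0⟩
    exact congrArg Subtype.val this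
  have h2 : Nat.card {x : Sylow 3 G | x ∈ fixedBy (Sylow 3 G) y ∧
      ∀ a ∈ zpowers (w : G), a • x = x} = 1 := by
    rw [Nat.card_eq_one_iff_unique]
    constructor
    · constructor
      rintro ⟨a, -, ha⟩ ⟨b, -, hb⟩
      have ha' : a ∈ fixedBy (Sylow 3 G) (w : G) := ha _ (Subgroup.mem_zpowers _)
      have hb' : b ∈ fixedBy (Sylow 3 G) (w : G) := hb _ (Subgroup.mem_zpowers _)
      have := hsub.elim ⟨a, ha'⟩ ⟨b, hb'⟩
      have hab : a = b := congrArg Subtype.val this
      exact Subtype.ext hab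
    · refine ⟨⟨Q0, hyQ0, ?_⟩⟩
      intro a ha
      have : zpowers (w : G) ≤ stabilizer G Q0 := by
        rw [Subgroup.zpowers_le]; exact hQ0'
      exact this ha
  rw [h2] at h1
  exact absurd h1 (by decide)

/-- common fixed points -/
def FixS (R : Subgroup G) : Set (Sylow 3 G) := {x | ∀ a ∈ R, a • x = x}

omit [IsSimpleGroup G] in
theorem eq_of_fixed (P x : Sylow 3 G) (hx : ∀ a ∈ P, a • x = x) : x = P := by
  symm
  apply sylow_eq_of_le
  have h1 : (P : Subgroup G) ≤ normalizer ((x : Subgroup G) : Set G) := fun a ha =>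
    Sylow.smul_eq_iff_mem_normalizer.mp (hx a ha)
  have h2 : (P : Subgroup G) ⊓ normalizer ((x : Subgroup G) : Set G) = (P : Subgroup G) ⊓ x :=
    P.2.inf_normalizer_sylow x
  rw [inf_of_le_left h1] at h2
  rw [h2]
  exact inf_le_right

omit [IsSimpleGroup G] in
theorem card_FixS_mod3 (P : Sylow 3 G) (R : Subgroup G)
    (hR : R ≤ centralizer ((P : Subgroup G) : Set G)) : Nat.card (FixS R) % 3 = 1 := by
  have h1 := card_inv_set_modEq (α := Sylow 3 G) (p := 3) (P : Subgroup G) P.2 (FixS R) (by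
    intro a ha x hx b hb
    have hcomm : a * b = b * a := (mem_centralizer_iff.mp (hR hb)) a ha
    rw [smul_smul, ← hcomm, mul_smul, hx b hb])
  have h2 : Nat.card {x : Sylow 3 G | x ∈ FixS R ∧ ∀ a ∈ (P : Subgroup G), a • x = x} = 1 := by
    rw [Nat.card_eq_one_iff_unique]
    constructor
    · constructor
      rintro ⟨a, -, ha⟩ ⟨b, -, hb⟩
      have hab : a = b := (eq_of_fixed P a ha).trans (eq_of_fixed P b hb).symm
      exact Subtype.ext hab
    · refine ⟨⟨P, ?_, ?_⟩⟩
      · intro a ha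
        exact Sylow.smul_eq_iff_mem_normalizer.mpr (Subgroup.centralizer_le_normalizer _ (hR ha))
      · intro a ha
        exact smul_eq_self_of_mem P a ha
  rw [h2] at h1
  exact h1

theorem two_bound1 (h : Nat.card (Sylow 3 G) = 22) (P : Sylow 3 G) (R : Subgroup G)
    (hRC : R ≤ centralizer ((P : Subgroup G) : Set G)) (k : ℕ) (hk : Nat.card R = 2 ^ k)
    (h5 : 5 ≤ Nat.card (FixS R)) : Nat.card R ∣ 4 := by
  have h1 := card_dvd_of_const_fix (α := Sylow 3 G) R 10 (by
    intro g hg hg1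
    obtain ⟨j, hj⟩ : ∃ j, orderOf g = 2 ^ j := by
      have := R.orderOf_dvd_natCard hg
      rw [hk] at this
      obtain ⟨j, -, hj⟩ := (Nat.dvd_prime_pow Nat.prime_two).mp this
      exact ⟨j, hj⟩
    have h2 := fxC_two_pow h P g (hRC hg) hg1 j hj
    have h3 : Nat.card (FixS R) ≤ fx g := Nat.card_mono (Set.toFinite _) (fun x hx => hx g hg)
    change fx g = 10
    omega) (by rw [h]; norm_num)
  rw [h, hk] at h1
  rw [hk]
  have h2 : k ≤ 2 := by
    by_contra hc
    have h3 : 2 ^ 3 ∣ 2 ^ k := pow_dvd_pow 2 (by omega)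
    have h4 := h3.trans h1
    norm_num at h4
  exact pow_dvd_pow 2 h2

theorem two_bound (h : Nat.card (Sylow 3 G) = 22) (P : Sylow 3 G) (R : Subgroup G)
    (hRC : R ≤ centralizer ((P : Subgroup G) : Set G)) (k : ℕ) (hk : Nat.card R = 2 ^ k) :
    Nat.card R ∣ 8 := by
  have hR2 : IsPGroup 2 R := IsPGroup.of_card hk
  have hm3 := card_FixS_mod3 P R hRC
  by_cases h5 : 5 ≤ Nat.card (FixS R)
  · exact (two_bound1 h P R hRC k hk h5).trans (by norm_num)
  have hinv : ∀ a ∈ R, ∀ x ∈ (FixS R)ᶜ, a • x ∈ (FixS R)ᶜ := by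
    intro a ha x hx hax
    apply hx
    have h1 : a⁻¹ • (a • x) = a • x := hax a⁻¹ (R.inv_mem ha)
    rw [inv_smul_smul] at h1
    rw [h1]; exact hax
  have hcs : Nat.card (FixS R) + Nat.card ((FixS R)ᶜ : Set (Sylow 3 G)) = 22 := by
    rw [Nat.card_coe_set_eq, Nat.card_coe_set_eq, Set.ncard_add_ncard_compl, h]
  have hidx : ∀ x ∈ (FixS R)ᶜ, ∃ i, i ≠ 0 ∧ (stabilizer G x).relIndex R = 2 ^ i := by
    intro x hx
    obtain ⟨i, hi⟩ := relIndex_pow (p := 2) R hR2 (stabilizer G x)
    refine ⟨i, ?_, hi⟩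
    rintro rfl
    rw [pow_zero, Subgroup.relIndex_eq_one] at hi
    exact hx (fun a ha => hi ha)
  have h2 : 2 ∣ Nat.card ((FixS R)ᶜ : Set (Sylow 3 G)) := by
    apply dvd_card_of_relIndex R _ hinv
    intro x hx
    obtain ⟨i, hi0, hi⟩ := hidx x hx
    rw [hi]; exact dvd_pow_self 2 hi0
  have h4 : Nat.card (FixS R) = 4 := by omega
  obtain ⟨x, hx, hx4⟩ : ∃ x ∈ (FixS R)ᶜ, ¬ 4 ∣ (stabilizer G x).relIndex R := by
    by_contra hall
    push Not at hall
    have := dvd_card_of_relIndex R _ hinv 4 hall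
    omega
  obtain ⟨i, hi0, hi⟩ := hidx x hx
  have hi1 : i = 1 := by
    by_contra hne
    apply hx4
    rw [hi]
    exact pow_dvd_pow 2 (show 2 ≤ i by omega)
  subst hi1
  set R1 : Subgroup G := R ⊓ stabilizer G x with hR1
  have c1 := card_mul_relIndex' R1 R inf_le_left
  rw [hR1, Subgroup.inf_relIndex_left, hi, ← hR1, pow_one] at c1
  obtain ⟨j, -, hj⟩ := (Nat.dvd_prime_pow Nat.prime_two).mp
    (hk ▸ Subgroup.card_dvd_of_le (inf_le_left : R1 ≤ R))
  have hlt : Nat.card (FixS R) < Nat.card (FixS R1) := by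
    rw [Nat.card_coe_set_eq, Nat.card_coe_set_eq]
    apply Set.ncard_lt_ncard _ (Set.toFinite _)
    refine ⟨fun y hy a ha => hy a ha.1, fun hcon => hx (hcon ?_)⟩
    intro a ha
    exact ha.2
  have h6 := two_bound1 h P R1 (inf_le_left.trans hRC) j hj (by omega)
  rw [← c1]
  exact Nat.mul_dvd_mul h6 (dvd_refl 2)

theorem card_C_dvd (h : Nat.card (Sylow 3 G) = 22) (h3 : ∀ P : Sylow 3 G, Nat.card P = 3)
    (P : Sylow 3 G) : Nat.card (centralizer ((P : Subgroup G) : Set G)) ∣ 168 := by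
  set C := centralizer ((P : Subgroup G) : Set G) with hC
  rw [Nat.dvd_iff_prime_pow_dvd_dvd]
  intro r k hr hrk
  rcases Nat.eq_zero_or_pos k with rfl | hk
  · simp
  haveI : Fact r.Prime := ⟨hr⟩
  have hrC : r ∣ Nat.card C := (dvd_pow_self r hk.ne').trans hrk
  obtain ⟨K, hK⟩ := Sylow.exists_subgroup_card_pow_prime r hrk
  set R : Subgroup G := K.map C.subtype with hR
  have hRC : R ≤ C := Subgroup.map_subtype_le _
  have hRcard : Nat.card R = r ^ k := by rw [hR, Subgroup.card_subtype, hK]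
  have hord : ∀ g ∈ R, ∃ j, orderOf g = r ^ j := by
    intro g hg
    have := R.orderOf_dvd_natCard hg
    rw [hRcard] at this
    obtain ⟨j, -, hj⟩ := (Nat.dvd_prime_pow hr).mp this
    exact ⟨j, hj⟩
  obtain ⟨c, hc⟩ := exists_prime_orderOf_dvd_card' r hrC
  have hc' : orderOf (c : G) = r := by rw [Subgroup.orderOf_coe, hc]
  have hc1 : (c : G) ≠ 1 := by
    intro h1; rw [h1, orderOf_one] at hc'; exact hr.one_lt.ne hc'
  have hr2357 : r = 2 ∨ r = 3 ∨ r = 5 ∨ r = 7 := by
    have h1 := fx_mod h (c : G) r 1 (by rw [hc', pow_one])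
    have h2 := fxC h P c c.2 hc1
    have h5 : r ∣ 22 - fx (c : G) := (Nat.modEq_iff_dvd' (by omega)).mp (Eq.symm h1)
    have h6 : 22 - fx (c : G) ∣ 1260 := by
      have : fx (c : G) = 1 ∨ fx (c : G) = 4 ∨ fx (c : G) = 7 ∨ fx (c : G) = 10 ∨
        fx (c : G) = 13 ∨ fx (c : G) = 16 ∨ fx (c : G) = 19 := by omega
      rcases this with h | h | h | h | h | h | h <;> rw [h] <;> norm_num
    have h7 : r ∣ 2 * 2 * 3 * 3 * 5 * 7 := h5.trans h6
    have e2 : ∀ q : ℕ, q.Prime → r ∣ q → r = q := fun q hq hd =>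
      (Nat.prime_dvd_prime_iff_eq hr hq).mp hd
    rcases (Nat.Prime.dvd_mul hr).mp h7 with h8 | h8
    · rcases (Nat.Prime.dvd_mul hr).mp h8 with h8 | h8
      · rcases (Nat.Prime.dvd_mul hr).mp h8 with h8 | h8
        · rcases (Nat.Prime.dvd_mul hr).mp h8 with h8 | h8
          · rcases (Nat.Prime.dvd_mul hr).mp h8 with h8 | h8
            · exact Or.inl (e2 2 (by norm_num) h8)
            · exact Or.inl (e2 2 (by norm_num) h8)
          · exact Or.inr (Or.inl (e2 3 (by norm_num) h8))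
        · exact Or.inr (Or.inl (e2 3 (by norm_num) h8))
      · exact Or.inr (Or.inr (Or.inl (e2 5 (by norm_num) h8)))
    · exact Or.inr (Or.inr (Or.inr (e2 7 (by norm_num) h8)))
  rcases hr2357 with rfl | rfl | rfl | rfl
  · have := two_bound h P R hRC k hRcard
    rw [hRcard] at this
    exact this.trans (by norm_num)
  · obtain ⟨Q, hQ⟩ := (IsPGroup.of_card hRcard).exists_le_sylow
    have := Subgroup.card_dvd_of_le hQ
    rw [hRcard, show Nat.card (Q : Subgroup G) = 3 from h3 Q] at this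
    exact this.trans (by norm_num)
  · exact (no_five h h3 P c c.2 hc').elim
  · have h1 := card_dvd_of_const_fix (α := Sylow 3 G) R 1 (by
      intro g hg hg1
      obtain ⟨j, hj⟩ := hord g hg
      exact fxC_seven h P g (hRC hg) hg1 j hj)
      (by rw [h]; norm_num)
    rw [hRcard, h] at h1
    exact h1.trans (by norm_num)

theorem card_N (h : Nat.card (Sylow 3 G) = 22) (h3 : ∀ P : Sylow 3 G, Nat.card P = 3)
    (P : Sylow 3 G) : Nat.card (normalizer ((P : Subgroup G) : Set G)) = 12 := by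
  set C := centralizer ((P : Subgroup G) : Set G) with hC
  set N := normalizer ((P : Subgroup G) : Set G) with hN
  haveI : IsCyclic (P : Subgroup G) := isCyclic_of_prime_card (h3 P)
  haveI : IsMulCommutative (P : Subgroup G) := ⟨⟨fun a b => IsCyclic.commGroup.mul_comm a b⟩⟩
  have hPC : (P : Subgroup G) ≤ C := Subgroup.le_centralizer _
  have h5 : 3 ∣ Nat.card C := by
    have := Subgroup.card_dvd_of_le hPC
    rwa [show Nat.card (P : Subgroup G) = 3 from h3 P] at this
  obtain ⟨c, hc⟩ := h5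
  have h168 := card_C_dvd h h3 P
  rw [← hC, hc] at h168
  have hc56 : c ∣ 56 := by
    have : 3 * c ∣ 3 * 56 := h168
    exact Nat.dvd_of_mul_dvd_mul_left (by norm_num) this
  have hrel := relIndex_centralizer_normalizer_dvd (p := 3) (P : Subgroup G) (h3 P)
  rw [← hC, ← hN] at hrel
  have hNcard : Nat.card C * C.relIndex N = Nat.card N :=
    card_mul_relIndex' C N (Subgroup.centralizer_le_normalizer _)
  have hG := card_normalizer h P
  rw [← hN] at hG
  have hk1 : C.relIndex N ≠ 1 := by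
    intro h1
    have hNC : N ≤ C := Subgroup.relIndex_eq_one.mp h1
    have := card_eq_of_normalizer_le_centralizer 3 P (by rw [h3 P]; norm_num) hNC
    rw [h3 P] at this
    have hpos : 0 < Nat.card N := Nat.card_pos
    omega
  have hk2 : C.relIndex N = 2 := by
    have hk10 : C.relIndex N ∣ 2 := hrel
    have hkle : C.relIndex N ≤ 2 := Nat.le_of_dvd (by norm_num) hk10
    have hk0 : C.relIndex N ≠ 0 := Subgroup.index_ne_zero_of_finite
    omega
  rw [hc, hk2] at hNcard
  have hcle : c ≤ 56 := Nat.le_of_dvd (by norm_num) hc56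
  obtain ⟨S⟩ : Nonempty (Sylow 11 G) := inferInstance
  have hd336 : Nat.card N ∣ 336 := by
    rw [← hNcard]
    have : 3 * c * 2 = c * 6 := by ring
    rw [this]
    exact Nat.mul_dvd_mul hc56 (dvd_refl 6)
  have hS := lemmaS h P (fun hd => by
      have := hd.trans hd336
      norm_num at this) (fun hd => by
      have := hd.trans hd336
      norm_num at this) S
  have hmod : Nat.card (Sylow 11 G) % 11 = 1 := card_sylow_modEq_one 11 G
  rw [hS.2.2.2, ← hN, ← hNcard] at hmod
  rw [← hNcard]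
  clear hS hd336 hNcard hG h168 hc
  interval_cases c <;> omega

omit [IsSimpleGroup G] in
theorem zpowers_eq {p : ℕ} [Fact p.Prime] (P : Subgroup G) (hP : Nat.card P = p) (g : G)
    (hg : g ∈ P) (hg1 : g ≠ 1) : zpowers g = P := by
  have hp : p.Prime := Fact.out
  have hle : zpowers g ≤ P := by rw [Subgroup.zpowers_le]; exact hg
  apply Subgroup.eq_of_le_of_card_ge hle
  have h1 : Nat.card (zpowers g) ∣ p := hP ▸ Subgroup.card_dvd_of_le hle
  rcases (Nat.dvd_prime hp).mp h1 with h2 | h2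
  · exfalso
    rw [Nat.card_zpowers, orderOf_eq_one_iff] at h2
    exact hg1 h2
  · rw [h2, hP]

theorem caseA_false (h : Nat.card (Sylow 3 G) = 22) (h3 : ∀ P : Sylow 3 G, Nat.card P = 3) :
    False := by
  obtain ⟨P⟩ : Nonempty (Sylow 3 G) := inferInstance
  obtain ⟨S⟩ : Nonempty (Sylow 11 G) := inferInstance
  have hN := card_N h h3 P
  obtain ⟨hS, hCS, hM22, hn11⟩ := lemmaS h P (by rw [hN]; norm_num) (by rw [hN]; norm_num) S
  rw [hN] at hn11
  set M := normalizer ((S : Subgroup G) : Set G) with hM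
  obtain ⟨u, hu⟩ := exists_prime_orderOf_dvd_card' (G := M) 2 (by rw [hM22]; norm_num)
  have hu' : orderOf (u : G) = 2 := by rw [Subgroup.orderOf_coe, hu]
  have hn1 : Nat.card (Sylow 11 G) ≠ 1 := by rw [hn11]; norm_num
  have hpar := parity_involution (α := Sylow 11 G) (faithful hn1)
    (not_comm_of_card_sylow hn1) (u : G) hu'
  rw [hn11] at hpar
  have hSfix : S ∈ fixedBy (Sylow 11 G) (u : G) := Sylow.smul_eq_iff_mem_normalizer.mpr u.2
  have hfpos : 0 < Nat.card (fixedBy (Sylow 11 G) (u : G)) :=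
    Nat.card_pos_iff.mpr ⟨⟨⟨S, hSfix⟩⟩, inferInstance⟩
  have hfle : Nat.card (fixedBy (Sylow 11 G) (u : G)) ≤ 12 := by
    rw [← hn11]
    exact Nat.card_le_card_of_injective _ Subtype.val_injective
  have hf4 : 4 ≤ Nat.card (fixedBy (Sylow 11 G) (u : G)) := by omega
  have hdiff : 1 < (fixedBy (Sylow 11 G) (u : G) \ {S}).ncard := by
    rw [Set.ncard_diff_singleton_of_mem hSfix, ← Nat.card_coe_set_eq]
    omega
  obtain ⟨T1, T2, ⟨hT1, hT1S⟩, ⟨hT2, hT2S⟩, hne⟩ := (Set.one_lt_ncard_iff (Set.toFinite _)).mp hdiff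
  have hT1S' : T1 ≠ S := hT1S
  have hT2S' : T2 ≠ S := hT2S
  have hT1' : (u : G) • T1 = T1 := hT1
  have hT2' : (u : G) • T2 = T2 := hT2
  have horbcard : Nat.card (orbit (S : Subgroup G) T1) = 11 := by
    rw [card_orbit (S : Subgroup G) S.2 T1]
    have h1 : (T1 : Subgroup G).relIndex S ∣ 11 := by
      have := Subgroup.relIndex_dvd_card (T1 : Subgroup G) (S : Subgroup G)
      rwa [show Nat.card (S : Subgroup G) = 11 from hS] at this
    rcases (Nat.dvd_prime (by norm_num)).mp h1 with h2 | h2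
    · exact absurd ((d_eq_one_iff S T1).mp h2).symm hT1S'
    · exact h2
  have horb : orbit (S : Subgroup G) T1 = {S}ᶜ := by
    apply Set.eq_of_subset_of_ncard_le
    · rintro _ ⟨a, rfl⟩ hcon
      have hcon' : (a : G) • T1 = S := hcon
      apply hT1S'
      have h1 : (a : G)⁻¹ • S = S := smul_eq_self_of_mem S _ (Subgroup.inv_mem _ a.2)
      calc T1 = (a : G)⁻¹ • ((a : G) • T1) := (inv_smul_smul _ _).symm
        _ = (a : G)⁻¹ • S := congrArg _ hcon'
        _ = S := h1
    · have h1 := Set.ncard_add_ncard_compl ({S} : Set (Sylow 11 G))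
      rw [Set.ncard_singleton, hn11] at h1
      rw [← Nat.card_coe_set_eq (orbit (S : Subgroup G) T1), horbcard]
      omega
    · exact Set.toFinite _
  have hT2orb : T2 ∈ orbit (S : Subgroup G) T1 := by rw [horb]; exact hT2S'
  obtain ⟨s, hs⟩ := hT2orb
  have hs' : (s : G) • T1 = T2 := hs
  have hs1 : (s : G) ≠ 1 := by
    intro h1
    rw [h1, one_smul] at hs'
    exact hne hs'
  have hconj : (u : G) * s * (u : G)⁻¹ ∈ (S : Subgroup G) := (u.2 s).mp s.2
  set g : G := (s : G)⁻¹ * ((u : G) * s * (u : G)⁻¹) with hg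
  have hgS : g ∈ (S : Subgroup G) := Subgroup.mul_mem _ (Subgroup.inv_mem _ s.2) hconj
  have hgT : g • T1 = T1 := by
    have h1 : (u : G)⁻¹ • T1 = T1 := by
      conv_lhs => rw [← hT1']
      rw [inv_smul_smul]
    rw [hg, mul_smul, mul_smul, mul_smul, h1, hs', hT2', ← hs', inv_smul_smul]
  by_cases hg1 : g = 1
  · have hcomm : (u : G) * s = s * u := by
      have h1 : (u : G) * s * (u : G)⁻¹ = s := by
        have : (s : G) * g = s := by rw [hg1, mul_one]
        rw [hg, mul_inv_cancel_left] at this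
        exact this
      calc (u : G) * s = (u : G) * s * (u : G)⁻¹ * u := by group
        _ = s * u := by rw [h1]
    have huC : (u : G) ∈ centralizer ((S : Subgroup G) : Set G) := by
      rw [Subgroup.mem_centralizer_iff]
      intro x hx
      have hx' : x ∈ zpowers (s : G) := by
        rw [zpowers_eq (p := 11) (S : Subgroup G) hS s s.2 hs1]; exact hx
      obtain ⟨n, rfl⟩ := Subgroup.mem_zpowers_iff.mp hx'
      have : Commute (s : G) (u : G) := hcomm.symm
      exact (this.zpow_left n)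
    rw [hCS] at huC
    have := Subgroup.orderOf_dvd_natCard _ huC
    rw [hu', show Nat.card (S : Subgroup G) = 11 from hS] at this
    norm_num at this
  · have := fixedBy_eq_singleton_of_mem S hS g hgS hg1
    have h1 : T1 ∈ fixedBy (Sylow 11 G) g := hgT
    rw [this] at h1
    exact hT1S' h1

end

end Cfsg.Agent.Lib.Helper63Syl22c
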