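import Mathlib
import Cfsg.Agent.Lib.Helper63Syl22c

set_option autoImplicit false
set_option linter.style.haveILetI false
set_option linter.unusedSectionVars false

namespace Cfsg.Agent.Lib.Helper63Syl22d

open Subgroup MulAction Cfsg.Agent.Lib.Helper63SylowNum Cfsg.Agent.Lib.Helper63SylowNum2
  Cfsg.Agent.Lib.Helper63SylowNum3 Cfsg.Agent.Lib.Helper76SylowCount
  Cfsg.Agent.Lib.Helper63Syl22a Cfsg.Agent.Lib.Helper63Syl22b Cfsg.Agent.Lib.Helper63Syl22c

section General
variable {G : Type*} [Group G] [Finite G]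

/-- a group acting fixed-point-freely on `P` has order dividing `|P| - 1` -/
theorem card_dvd_sub_one (R P : Subgroup G) (hRN : R ≤ normalizer (P : Set G))
    (hfree : ∀ g ∈ R, g ≠ 1 → ∀ x ∈ P, g * x = x * g → x = 1) :
    Nat.card R ∣ Nat.card P - 1 := by
  letI : MulAction R P :=
    { smul := fun g x => ⟨(g : G) * x * (g : G)⁻¹, ((hRN g.2) x).mp x.2⟩
      one_smul := fun x => by
        apply Subtype.ext
        change ((1 : R) : G) * x * ((1 : R) : G)⁻¹ = x
        simp
      mul_smul := fun g h x => by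
        apply Subtype.ext
        change ((g * h : R) : G) * x * ((g * h : R) : G)⁻¹ = (g : G) * ((h : G) * x * (h : G)⁻¹) * (g : G)⁻¹
        simp [mul_assoc] }
  have h1 := card_dvd_of_const_fix (G := R) (α := P) ⊤ 1 (by
    intro g _ hg1
    rw [Nat.card_eq_one_iff_unique]
    constructor
    · constructor
      have hone : ∀ a : fixedBy P g, (a : P) = 1 := by
        rintro ⟨a, ha⟩
        have ha' : (g : G) * a * (g : G)⁻¹ = a := congrArg Subtype.val ha
        have h2 : (g : G) * a = a * g := by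
          calc (g : G) * a = (g : G) * a * (g : G)⁻¹ * g := by group
            _ = a * g := by rw [ha']
        have h3 := hfree g g.2 (fun hc => hg1 (Subtype.ext hc)) a a.2 h2
        exact Subtype.ext h3
      intro a b
      exact Subtype.ext ((hone a).trans (hone b).symm)
    · refine ⟨⟨1, ?_⟩⟩
      apply Subtype.ext
      change (g : G) * ((1 : P) : G) * (g : G)⁻¹ = ((1 : P) : G)
      simp) Nat.card_pos
  rwa [Subgroup.card_top] at h1

end General

section
variable {G : Type*} [Group G] [Finite G] [IsSimpleGroup G]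

/-- hypotheses of case B -/
structure HB (G : Type*) [Group G] : Prop where
  h : Nat.card (Sylow 3 G) = 22
  h9 : ∀ P : Sylow 3 G, Nat.card P = 9
  a9 : ∀ P : Sylow 3 G, Nat.card (AA 9 P) = 9
  a3 : ∀ P : Sylow 3 G, Nat.card (AA 3 P) = 12

omit [IsSimpleGroup G] in
theorem comm (H : HB G) (P : Sylow 3 G) (a b : G) (ha : a ∈ P) (hb : b ∈ P) : a * b = b * a := by
  have := IsPGroup.commutative_of_card_eq_prime_sq (p := 3) (G := (P : Subgroup G))
    (by rw [show Nat.card (P : Subgroup G) = 9 from H.h9 P]; norm_num) ⟨a, ha⟩ ⟨b, hb⟩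
  exact congrArg Subtype.val this

omit [IsSimpleGroup G] in
theorem P_le_C (H : HB G) (P : Sylow 3 G) :
    (P : Subgroup G) ≤ centralizer ((P : Subgroup G) : Set G) := by
  intro a ha
  rw [Subgroup.mem_centralizer_iff]
  intro b hb
  exact comm H P b a hb ha

omit [IsSimpleGroup G] in
theorem inf_eq_bot (H : HB G) (P R : Sylow 3 G) (hR : R ∈ AA 9 P) :
    (P : Subgroup G) ⊓ R = ⊥ := by
  have h1 := card_inf_mul_dd P R
  rw [show dd P R = 9 from hR, H.h9 P] at h1
  apply Subgroup.eq_bot_of_card_eq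
  omega

omit [IsSimpleGroup G] in
theorem card_inf_three (H : HB G) (P Q : Sylow 3 G) (hQ : Q ∈ AA 3 P) :
    Nat.card ((P : Subgroup G) ⊓ Q : Subgroup G) = 3 := by
  have h1 := card_inf_mul_dd P Q
  rw [show dd P Q = 3 from hQ, H.h9 P] at h1
  omega

omit [IsSimpleGroup G] in
/-- an element of `P` fixes `T` iff it lies in `T` -/
theorem mem_of_fix (P T : Sylow 3 G) (x : G) (hx : x ∈ P) (hT : x • T = T) : x ∈ T := by
  have h2 : (P : Subgroup G) ⊓ normalizer ((T : Subgroup G) : Set G) = (P : Subgroup G) ⊓ T :=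
    P.2.inf_normalizer_sylow T
  have h3 : x ∈ (P : Subgroup G) ⊓ normalizer ((T : Subgroup G) : Set G) :=
    ⟨hx, Sylow.smul_eq_iff_mem_normalizer.mp hT⟩
  rw [h2] at h3
  exact h3.2

omit [IsSimpleGroup G] in
theorem not_fix_A9 (H : HB G) (P R : Sylow 3 G) (hR : R ∈ AA 9 P) (x : G) (hx : x ∈ P)
    (hx1 : x ≠ 1) : x • R ≠ R := by
  intro hfix
  have h1 : x ∈ (P : Subgroup G) ⊓ R := ⟨hx, mem_of_fix P R x hx hfix⟩
  rw [inf_eq_bot H P R hR, Subgroup.mem_bot] at h1
  exact hx1 h1

omit [IsSimpleGroup G] in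
theorem P_notMem (k : ℕ) (hk : k ≠ 1) (P : Sylow 3 G) : P ∉ AA k P := by
  intro hP
  rw [mem_AA, dd_self] at hP
  exact hk hP.symm

/-- an element of `C(P)` of prime order `r ≠ 3` fixes all of `A9` -/
theorem fix_A9 (H : HB G) (P : Sylow 3 G) (g : G)
    (hg : g ∈ centralizer ((P : Subgroup G) : Set G)) (r : ℕ) [Fact r.Prime] (hr : orderOf g = r)
    (hr3 : r ≠ 3) (R : Sylow 3 G) (hR : R ∈ AA 9 P) : g • R = R := by
  have hrp : r.Prime := Fact.out
  have hz : IsPGroup r (zpowers g) := by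
    apply IsPGroup.of_card (n := 1)
    rw [Nat.card_zpowers, hr, pow_one]
  have hzN : zpowers g ≤ normalizer ((P : Subgroup G) : Set G) := by
    rw [Subgroup.zpowers_le]; exact Subgroup.centralizer_le_normalizer _ hg
  have h1 := card_inv_set_modEq (α := Sylow 3 G) (p := r) (zpowers g) hz (AA 9 P)
    (fun a ha x hx => AA_inv 9 P a (hzN ha) x hx)
  rw [H.a9 P] at h1
  have hne : Nat.card {x : Sylow 3 G | x ∈ AA 9 P ∧ ∀ a ∈ zpowers g, a • x = x} ≠ 0 := by
    intro h0
    rw [h0] at h1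
    have h2 : r ∣ 3 ^ 2 := (Nat.modEq_zero_iff_dvd).mp h1
    exact hr3 ((Nat.prime_dvd_prime_iff_eq hrp (by norm_num)).mp (hrp.dvd_of_dvd_pow h2))
  obtain ⟨⟨R0, hR0, hfix⟩⟩ : Nonempty {x : Sylow 3 G | x ∈ AA 9 P ∧ ∀ a ∈ zpowers g, a • x = x} :=
    (Nat.card_pos_iff.mp (Nat.pos_of_ne_zero hne)).1
  have hgR0 : g • R0 = R0 := hfix g (Subgroup.mem_zpowers g)
  have horb := orbit_eq_AA 9 P R0 hR0 (H.a9 P)
  rw [← horb] at hR
  obtain ⟨a, rfl⟩ := hR
  change g • (a : G) • R0 = (a : G) • R0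
  have hcomm : (a : G) * g = g * a := (mem_centralizer_iff.mp hg) a a.2
  rw [smul_smul, ← hcomm, mul_smul, hgR0]

/-- the only prime-order elements of `C(P)` outside `P` would be involutions fixing `P ∪ A9` -/
theorem C_prime (H : HB G) (P : Sylow 3 G) (g : G)
    (hg : g ∈ centralizer ((P : Subgroup G) : Set G)) (r : ℕ) [Fact r.Prime] (hr : orderOf g = r)
    (hr3 : r ≠ 3) : r = 2 ∧ fixedBy (Sylow 3 G) g = insert P (AA 9 P) := by
  have hrp : r.Prime := Fact.out
  have hg1 : g ≠ 1 := by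
    intro h1; rw [h1, orderOf_one] at hr; exact hrp.one_lt.ne hr
  have hsub : insert P (AA 9 P) ⊆ fixedBy (Sylow 3 G) g := by
    intro T hT
    rcases hT with rfl | hT
    · exact Sylow.smul_eq_iff_mem_normalizer.mpr (Subgroup.centralizer_le_normalizer _ hg)
    · exact fix_A9 H P g hg r hr hr3 T hT
  have hcard : (insert P (AA 9 P)).ncard = 10 := by
    rw [Set.ncard_insert_of_notMem (P_notMem 9 (by norm_num) P) (Set.toFinite _),
      ← Nat.card_coe_set_eq, H.a9 P]
  have h10 : 10 ≤ fx g := by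
    have := Set.ncard_le_ncard hsub (Set.toFinite _)
    rw [hcard, ← Nat.card_coe_set_eq] at this
    exact this
  have h1 := fxC H.h P g hg hg1
  have h2 := fx_mod H.h g r 1 (by rw [hr, pow_one])
  have h5 : r ∣ 22 - fx g := (Nat.modEq_iff_dvd' (by omega)).mp (Eq.symm h2)
  have h6 : 22 - fx g ∣ 36 := by
    have : fx g = 10 ∨ fx g = 13 ∨ fx g = 16 ∨ fx g = 19 := by omega
    rcases this with h | h | h | h <;> rw [h] <;> norm_num
  have h7 : r ∣ 2 ^ 2 * 3 ^ 2 := h5.trans h6
  have hr2 : r = 2 := by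
    rcases (Nat.Prime.dvd_mul hrp).mp h7 with h8 | h8
    · exact (Nat.prime_dvd_prime_iff_eq hrp (by norm_num)).mp (hrp.dvd_of_dvd_pow h8)
    · exact absurd ((Nat.prime_dvd_prime_iff_eq hrp (by norm_num)).mp (hrp.dvd_of_dvd_pow h8)) hr3
  refine ⟨hr2, ?_⟩
  subst hr2
  have h8 := fx_inv H.h g hr
  have h9 : fx g = 10 := by omega
  symm
  apply Set.eq_of_subset_of_ncard_le hsub _ (Set.toFinite _)
  rw [hcard, ← Nat.card_coe_set_eq]
  exact h9.le

/-- no element of prime order `≥ 5` in `N(P)` -/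
theorem N_prime (H : HB G) (P : Sylow 3 G) (g : G)
    (hg : g ∈ normalizer ((P : Subgroup G) : Set G)) (r : ℕ) [Fact r.Prime] (hr : orderOf g = r)
    (hr5 : 5 ≤ r) : False := by
  have hrp : r.Prime := Fact.out
  have hz : IsPGroup r (zpowers g) := by
    apply IsPGroup.of_card (n := 1)
    rw [Nat.card_zpowers, hr, pow_one]
  have hzN : zpowers g ≤ normalizer ((P : Subgroup G) : Set G) := by
    rw [Subgroup.zpowers_le]; exact hg
  have h1 := card_modEq_card_inf_centralizer (zpowers g) (P : Subgroup G) hz hzN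
  rw [show Nat.card (P : Subgroup G) = 9 from H.h9 P] at h1
  set X : Subgroup G := (P : Subgroup G) ⊓ centralizer ((zpowers g : Subgroup G) : Set G) with hX
  have h2 : Nat.card X ∣ 9 := by
    have := Subgroup.card_dvd_of_le (inf_le_left : X ≤ P)
    rwa [show Nat.card (P : Subgroup G) = 9 from H.h9 P] at this
  have h3 : Nat.card X ≤ 9 := Nat.le_of_dvd (by norm_num) h2
  have h4 : r ∣ 9 - Nat.card X := (Nat.modEq_iff_dvd' h3).mp h1.symm
  have h5 : Nat.card X = 9 := by
    by_contra hne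
    have h6 : 9 - Nat.card X ∣ 24 := by
      generalize Nat.card X = c at *
      interval_cases c <;> first | omega | norm_num | (exfalso; revert h2; norm_num)
    have h7 : r ∣ 2 ^ 3 * 3 := h4.trans h6
    rcases (Nat.Prime.dvd_mul hrp).mp h7 with h8 | h8
    · have := (Nat.prime_dvd_prime_iff_eq hrp (by norm_num)).mp (hrp.dvd_of_dvd_pow h8)
      omega
    · have := (Nat.prime_dvd_prime_iff_eq hrp (by norm_num)).mp h8
      omega
  have h6 : X = P := by
    apply Subgroup.eq_of_le_of_card_ge inf_le_left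
    rw [h5, show Nat.card (P : Subgroup G) = 9 from H.h9 P]
  have h7 : g ∈ centralizer ((P : Subgroup G) : Set G) := by
    rw [Subgroup.mem_centralizer_iff]
    intro x hx
    have hx' : x ∈ X := by rw [h6]; exact hx
    exact ((Subgroup.mem_centralizer_iff.mp hx'.2) g (Subgroup.mem_zpowers g)).symm
  have := (C_prime H P g h7 r hr (by omega)).1
  omega

theorem not_dvd_card (H : HB G) (r : ℕ) (hrp : r.Prime) (hr5 : 5 ≤ r) (hr11 : r ≠ 11) :
    ¬ r ∣ Nat.card G := by
  intro hd
  haveI : Fact r.Prime := ⟨hrp⟩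
  obtain ⟨P⟩ : Nonempty (Sylow 3 G) := inferInstance
  rw [← card_normalizer H.h P] at hd
  rcases (Nat.Prime.dvd_mul hrp).mp hd with h1 | h1
  · obtain ⟨g, hg⟩ := exists_prime_orderOf_dvd_card' r h1
    exact N_prime H P (g : G) g.2 r (by rw [Subgroup.orderOf_coe, hg]) hr5
  · have h2 : r ∣ 2 * 11 := h1
    rcases (Nat.Prime.dvd_mul hrp).mp h2 with h3 | h3
    · have := (Nat.prime_dvd_prime_iff_eq hrp (by norm_num)).mp h3
      omega
    · exact hr11 ((Nat.prime_dvd_prime_iff_eq hrp (by norm_num)).mp h3)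

theorem fx_P (H : HB G) (P : Sylow 3 G) (x : G) (hx : x ∈ P) (hx1 : x ≠ 1) :
    fx x = 1 ∨ fx x = 4 := by
  set L : Subgroup G := centralizer ({x} : Set G) with hL
  have hLmem : ∀ k, k ∈ L ↔ x * k = k * x := by
    intro k
    rw [hL, Subgroup.mem_centralizer_iff]
    simp
  have hPfix : P ∈ fixedBy (Sylow 3 G) x := smul_eq_self_of_mem P x hx
  have hdvd : fx x ∣ Nat.card G := by
    have := card_dvd_of_le L (fixedBy (Sylow 3 G) x) (by
      intro T hT q hq
      rw [hLmem]
      exact comm H T x q (mem_of_fix P T x hx hT) hq) (by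
      intro k hk Q hQ
      have hQ' : x • Q = Q := hQ
      change x • k • Q = k • Q
      rw [smul_smul, (hLmem k).mp hk, mul_smul, hQ']) ⟨P, hPfix⟩
    exact this.trans (Subgroup.card_subgroup_dvd_card _)
  have hmod : fx x % 3 = 1 := fx_mod3 P x (P_le_C H P hx)
  have hle : fx x ≤ 13 := by
    have hsub : fixedBy (Sylow 3 G) x ⊆ (AA 9 P)ᶜ := by
      intro T hT hT9
      exact not_fix_A9 H P T hT9 x hx hx1 hT
    have h1 := Set.ncard_le_ncard hsub (Set.toFinite _)
    have h2 := Set.ncard_add_ncard_compl (AA 9 P)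
    rw [← Nat.card_coe_set_eq (AA 9 P), H.a9 P, H.h] at h2
    rw [← Nat.card_coe_set_eq] at h1
    change fx x ≤ _ at h1
    omega
  have h7 := not_dvd_card H 7 (by norm_num) (by norm_num) (by norm_num)
  have h5 := not_dvd_card H 5 (by norm_num) (by norm_num) (by norm_num)
  have h13 := not_dvd_card H 13 (by norm_num) (by norm_num) (by norm_num)
  have hc : fx x = 1 ∨ fx x = 4 ∨ fx x = 7 ∨ fx x = 10 ∨ fx x = 13 := by omega
  rcases hc with h | h | h | h | h
  · exact Or.inl h
  · exact Or.inr h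
  · rw [h] at hdvd; exact absurd hdvd h7
  · rw [h] at hdvd; exact absurd ((show 5 ∣ 10 by norm_num).trans hdvd) h5
  · rw [h] at hdvd; exact absurd hdvd h13

omit [IsSimpleGroup G] in
theorem sum_fx (H : HB G) (P : Sylow 3 G) [Fintype (P : Subgroup G)] :
    ∑ x : (P : Subgroup G), fx (x : G) = 54 := by
  classical
  haveI : Fintype (Sylow 3 G) := Fintype.ofFinite _
  have key := Finset.sum_card_bipartiteAbove_eq_sum_card_bipartiteBelow
    (s := (Finset.univ : Finset (P : Subgroup G))) (t := (Finset.univ : Finset (Sylow 3 G)))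
    (fun (x : (P : Subgroup G)) (T : Sylow 3 G) => (x : G) • T = T)
  have hL : ∀ x : (P : Subgroup G), (Finset.bipartiteAbove
      (fun (x : (P : Subgroup G)) (T : Sylow 3 G) => (x : G) • T = T) Finset.univ x).card =
      fx (x : G) := by
    intro x
    symm
    exact Nat.subtype_card _ (by intro T; simp [Finset.bipartiteAbove, MulAction.mem_fixedBy])
  have hR : ∀ T : Sylow 3 G, (Finset.bipartiteBelow
      (fun (x : (P : Subgroup G)) (T : Sylow 3 G) => (x : G) • T = T) Finset.univ T).card *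
      dd P T = 9 := by
    intro T
    have h1 := ((stabilizer G T).subgroupOf (P : Subgroup G)).card_mul_index
    have h2 : ((stabilizer G T).subgroupOf (P : Subgroup G)).index = dd P T :=
      relIndex_stabilizer (P : Subgroup G) P.2 T
    rw [h2, show Nat.card (P : Subgroup G) = 9 from H.h9 P] at h1
    rw [← h1]
    congr 1
    symm
    exact Nat.subtype_card _ (by
      intro x; simp [Finset.bipartiteBelow, mem_subgroupOf, mem_stabilizer_iff])
  have hR' : ∀ T : Sylow 3 G, (Finset.bipartiteBelow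
      (fun (x : (P : Subgroup G)) (T : Sylow 3 G) => (x : G) • T = T) Finset.univ T).card =
      1 + (if dd P T = 3 then 2 else 0) + (if dd P T = 1 then 8 else 0) := by
    intro T
    have h1 := hR T
    rcases dd_cases H.h P T with h2 | h2 | h2 <;> rw [h2] at h1 ⊢ <;> simp <;> omega
  have h2 : ∀ k, Nat.card (AA k P) = (Finset.univ.filter (fun Q => dd P Q = k)).card := by
    intro k
    exact Nat.subtype_card _ (by intro x; simp [AA])
  have h3 : (Finset.univ.filter (fun Q => dd P Q = 1)).card = 1 := by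
    rw [Finset.card_eq_one]
    refine ⟨P, ?_⟩
    ext Q
    simp only [Finset.mem_filter, Finset.mem_univ, true_and, Finset.mem_singleton]
    constructor
    · intro hQ; exact ((d_eq_one_iff P Q).mp hQ).symm
    · rintro rfl; exact dd_self _
  have h4 : (Finset.univ.filter (fun Q => dd P Q = 3)).card = 12 := by rw [← h2, H.a3 P]
  rw [Finset.sum_congr rfl (fun x _ => hL x), Finset.sum_congr rfl (fun T _ => hR' T)] at key
  rw [key, Finset.sum_add_distrib, Finset.sum_add_distrib, Finset.sum_ite, Finset.sum_ite]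
  simp only [Finset.sum_const, Finset.card_univ, smul_eq_mul, mul_one, mul_zero, add_zero]
  rw [h3, h4, ← Nat.card_eq_fintype_card, H.h]

theorem fx_P_eq (H : HB G) (P : Sylow 3 G) (x : G) (hx : x ∈ P) (hx1 : x ≠ 1) : fx x = 4 := by
  classical
  haveI : Fintype (P : Subgroup G) := Fintype.ofFinite _
  by_contra hne
  have hsum := sum_fx H P
  have hb : ∑ y : (P : Subgroup G), (4 + if y = 1 then 18 else 0) = 54 := by
    rw [Finset.sum_add_distrib, Finset.sum_ite_eq' Finset.univ (1 : (P : Subgroup G))]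
    simp only [Finset.sum_const, Finset.card_univ, smul_eq_mul, Finset.mem_univ, if_true]
    rw [← Nat.card_eq_fintype_card, show Nat.card (P : Subgroup G) = 9 from H.h9 P]
  have hlt : ∑ y : (P : Subgroup G), fx (y : G) <
      ∑ y : (P : Subgroup G), (4 + if y = 1 then 18 else 0) := by
    apply Finset.sum_lt_sum
    · intro y _
      by_cases hy : y = 1
      · subst hy
        simp only [if_true]
        exact fx_le H.h _
      · simp only [hy, if_false, add_zero]
        have hy' : (y : G) ≠ 1 := fun hc => hy (Subtype.ext hc)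
        rcases fx_P H P y y.2 hy' with h | h <;> omega
    · refine ⟨⟨x, hx⟩, Finset.mem_univ _, ?_⟩
      have hx' : (⟨x, hx⟩ : (P : Subgroup G)) ≠ 1 := fun hc => hx1 (congrArg Subtype.val hc)
      simp only [hx', if_false, add_zero]
      rcases fx_P H P x hx hx1 with h | h <;> omega
  omega

omit [Finite G] [IsSimpleGroup G] in
theorem zpowers_comm (u w : G) (h : u * w = w * u) : ∀ a ∈ zpowers u, a * w = w * a := by
  intro a ha
  obtain ⟨n, rfl⟩ := Subgroup.mem_zpowers_iff.mp ha
  have : Commute u w := h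
  exact this.zpow_left n

omit [Finite G] [IsSimpleGroup G] in
theorem fixedBy_inv_of_comm (g : G) (A : Subgroup G) (hA : ∀ a ∈ A, a * g = g * a) :
    ∀ a ∈ A, ∀ T ∈ fixedBy (Sylow 3 G) g, a • T ∈ fixedBy (Sylow 3 G) g := by
  intro a ha T hT
  have hT' : g • T = T := hT
  change g • a • T = a • T
  rw [smul_smul, ← hA a ha, mul_smul, hT']

omit [Finite G] [IsSimpleGroup G] in
theorem fix_zpowers (u : G) (T : Sylow 3 G) (h : u • T = T) : ∀ a ∈ zpowers u, a • T = T := by
  intro a ha
  have : zpowers u ≤ stabilizer G T := by rw [Subgroup.zpowers_le]; exact h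
  exact this ha

omit [IsSimpleGroup G] in
theorem isPGroup_zpowers (u : G) (r : ℕ) [Fact r.Prime] (hu : orderOf u = r) :
    IsPGroup r (zpowers u) := by
  apply IsPGroup.of_card (n := 1)
  rw [Nat.card_zpowers, hu, pow_one]

theorem no_inv_C (H : HB G) (P : Sylow 3 G) (v : G)
    (hv : v ∈ centralizer ((P : Subgroup G) : Set G)) (hv2 : orderOf v = 2) : False := by
  have hfix := (C_prime H P v hv 2 hv2 (by norm_num)).2
  obtain ⟨⟨Q, hQ⟩⟩ : Nonempty (AA 3 P) := (Nat.card_pos_iff.mp (by rw [H.a3 P]; norm_num)).1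
  have h3 := card_inf_three H P Q hQ
  obtain ⟨x, hx, hx1⟩ : ∃ x ∈ (P : Subgroup G) ⊓ Q, x ≠ 1 := by
    by_contra hcon
    push Not at hcon
    have : ((P : Subgroup G) ⊓ Q : Subgroup G) = ⊥ := (Subgroup.eq_bot_iff_forall _).mpr hcon
    rw [this, Subgroup.card_bot] at h3
    omega
  have hfx := fx_P_eq H P x hx.1 hx1
  have hcomm : v * x = x * v := ((mem_centralizer_iff.mp hv) x hx.1).symm
  have h1 := card_inv_set_modEq (α := Sylow 3 G) (p := 2) (zpowers v) (isPGroup_zpowers v 2 hv2)
    (fixedBy (Sylow 3 G) x) (fixedBy_inv_of_comm x _ (zpowers_comm v x hcomm))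
  rw [show Nat.card (fixedBy (Sylow 3 G) x) = 4 from hfx] at h1
  have h2 : Nat.card {T : Sylow 3 G | T ∈ fixedBy (Sylow 3 G) x ∧
      ∀ a ∈ zpowers v, a • T = T} = 1 := by
    have hone : ∀ T : Sylow 3 G, T ∈ fixedBy (Sylow 3 G) x → (∀ a ∈ zpowers v, a • T = T) →
        T = P := by
      intro T hT1 hT2
      have h4 : T ∈ fixedBy (Sylow 3 G) v := hT2 v (Subgroup.mem_zpowers v)
      rw [hfix] at h4
      rcases h4 with h4 | h4
      · exact h4
      · exact absurd hT1 (not_fix_A9 H P T h4 x hx.1 hx1)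
    rw [Nat.card_eq_one_iff_unique]
    constructor
    · constructor
      rintro ⟨a, ha1, ha2⟩ ⟨b, hb1, hb2⟩
      have hab : a = b := (hone a ha1 ha2).trans (hone b hb1 hb2).symm
      exact Subtype.ext hab
    · refine ⟨⟨P, smul_eq_self_of_mem P x hx.1, ?_⟩⟩
      apply fix_zpowers
      exact Sylow.smul_eq_iff_mem_normalizer.mpr (Subgroup.centralizer_le_normalizer _ hv)
  rw [h2] at h1
  exact absurd h1 (by decide)

theorem C_eq_P (H : HB G) (P : Sylow 3 G) : centralizer ((P : Subgroup G) : Set G) = P := by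
  set C := centralizer ((P : Subgroup G) : Set G) with hC
  have hprime : ∀ {r : ℕ}, r.Prime → r ∣ Nat.card C → r = 3 := by
    intro r hr hrC
    by_contra hr3
    haveI : Fact r.Prime := ⟨hr⟩
    obtain ⟨c, hc⟩ := exists_prime_orderOf_dvd_card' r hrC
    have hc' : orderOf (c : G) = r := by rw [Subgroup.orderOf_coe, hc]
    have := (C_prime H P c c.2 r hc' hr3).1
    subst this
    exact no_inv_C H P c c.2 hc'
  have h1 := Nat.eq_prime_pow_of_unique_prime_dvd (Nat.card_pos (α := C)).ne' hprime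
  exact P.3 (IsPGroup.of_card h1) (P_le_C H P)

theorem inv_free (H : HB G) (P : Sylow 3 G) (u : G)
    (hu : u ∈ normalizer ((P : Subgroup G) : Set G)) (hu2 : orderOf u = 2) (w : G) (hw : w ∈ P)
    (hcomm : u * w = w * u) : w = 1 := by
  by_contra hw1
  have huC : u ∉ centralizer ((P : Subgroup G) : Set G) := fun hc => no_inv_C H P u hc hu2
  have huu : u * u = 1 := by
    have := pow_orderOf_eq_one u
    rwa [hu2, sq] at this
  have huinv : u⁻¹ = u := inv_eq_of_mul_eq_one_left huu
  have hfw := fx_P_eq H P w hw hw1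
  set I : Set (Sylow 3 G) := {T | w • T = T ∧ u • T = T} with hI
  have hzu : IsPGroup 2 (zpowers u) := isPGroup_zpowers u 2 hu2
  have hzw : IsPGroup 3 (zpowers w) := P.2.to_le (by rw [Subgroup.zpowers_le]; exact hw)
  have e1 : {T : Sylow 3 G | T ∈ fixedBy (Sylow 3 G) w ∧ ∀ a ∈ zpowers u, a • T = T} = I := by
    ext T
    constructor
    · rintro ⟨h1, h2⟩; exact ⟨h1, h2 u (Subgroup.mem_zpowers u)⟩
    · rintro ⟨h1, h2⟩; exact ⟨h1, fix_zpowers u T h2⟩
  have e2 : {T : Sylow 3 G | T ∈ fixedBy (Sylow 3 G) u ∧ ∀ a ∈ zpowers w, a • T = T} = I := by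
    ext T
    constructor
    · rintro ⟨h1, h2⟩; exact ⟨h2 w (Subgroup.mem_zpowers w), h1⟩
    · rintro ⟨h1, h2⟩; exact ⟨h2, fix_zpowers w T h1⟩
  have c1 := card_inv_set_modEq (α := Sylow 3 G) (p := 2) (zpowers u) hzu
    (fixedBy (Sylow 3 G) w) (fixedBy_inv_of_comm w _ (zpowers_comm u w hcomm))
  have c2 := card_inv_set_modEq (α := Sylow 3 G) (p := 3) (zpowers w) hzw
    (fixedBy (Sylow 3 G) u) (fixedBy_inv_of_comm u _ (zpowers_comm w u hcomm.symm))
  rw [e1, show Nat.card (fixedBy (Sylow 3 G) w) = 4 from hfw] at c1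
  rw [e2] at c2
  have hPI : P ∈ I := ⟨smul_eq_self_of_mem P w hw, Sylow.smul_eq_iff_mem_normalizer.mpr hu⟩
  have hIpos : 0 < Nat.card I := Nat.card_pos_iff.mpr ⟨⟨⟨P, hPI⟩⟩, inferInstance⟩
  have hIsub : I ⊆ fixedBy (Sylow 3 G) w := fun T hT => hT.1
  have hIle : Nat.card I ≤ 4 := by
    have := Nat.card_mono (Set.toFinite _) hIsub
    rwa [show Nat.card (fixedBy (Sylow 3 G) w) = 4 from hfw] at this
  have c1' : 4 % 2 = Nat.card I % 2 := c1
  have hI4 : Nat.card I ≠ 4 := by
    intro h4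
    have hIeq : I = fixedBy (Sylow 3 G) w := by
      apply Set.eq_of_subset_of_ncard_le hIsub _ (Set.toFinite _)
      rw [← Nat.card_coe_set_eq, ← Nat.card_coe_set_eq, h4]
      exact hfw.le
    have hall : ∀ T : Sylow 3 G, w • T = T → u • T = T := by
      intro T hT
      have : T ∈ I := by rw [hIeq]; exact hT
      exact this.2
    obtain ⟨Q, hQ, hQP⟩ := Set.exists_ne_of_one_lt_ncard
      (s := fixedBy (Sylow 3 G) w) (by rw [← Nat.card_coe_set_eq]; change 1 < fx w; omega) P
    have hQ' : w • Q = Q := hQ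
    have hwQ : w ∈ Q := mem_of_fix P Q w hw hQ'
    have hdd : Q ∈ AA 3 P := by
      rcases dd_cases H.h P Q with h1 | h1 | h1
      · exact absurd ((d_eq_one_iff P Q).mp h1).symm hQP
      · exact h1
      · exact absurd hQ' (not_fix_A9 H P Q h1 w hw hw1)
    have hD := zpowers_eq (p := 3) ((P : Subgroup G) ⊓ Q) (card_inf_three H P Q hdd) w
      ⟨hw, hwQ⟩ hw1
    apply huC
    rw [Subgroup.mem_centralizer_iff]
    intro x hx
    have hxQ : w • (x • Q) = x • Q := by
      rw [smul_smul, comm H P w x hw hx, mul_smul, hQ']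
    have huxQ : u • (x • Q) = x • Q := hall _ hxQ
    have huQ : u • Q = Q := hall _ hQ'
    set c : G := x⁻¹ * (u * x * u⁻¹) with hc
    have hcP : c ∈ P := Subgroup.mul_mem _ (Subgroup.inv_mem _ hx) ((hu x).mp hx)
    have hcQ : c • Q = Q := by
      rw [hc, huinv, mul_smul, mul_smul, mul_smul, huQ, huxQ, inv_smul_smul]
    have hcD : c ∈ zpowers w := by
      rw [hD]; exact ⟨hcP, mem_of_fix P Q c hcP hcQ⟩
    have hcu : c * u = u * c := zpowers_comm w u hcomm.symm c hcD
    have hxc : u * x * u⁻¹ = x * c := by rw [hc, mul_inv_cancel_left]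
    have hcc : c * c = 1 := by
      have h1 : x = u * (u * x * u⁻¹) * u⁻¹ := by
        rw [huinv]
        calc x = (u * u) * x * (u * u) := by rw [huu]; simp
          _ = u * (u * x * u) * u := by group
      rw [hxc] at h1
      have h2 : u * (x * c) * u⁻¹ = (u * x * u⁻¹) * (u * c * u⁻¹) := by group
      rw [h2, hxc, ← hcu, mul_inv_cancel_right] at h1
      have h3 : x * 1 = x * (c * c) := by rw [mul_one, ← mul_assoc]; exact h1
      exact (mul_left_cancel h3).symm
    have hc9 : c ^ 9 = 1 := by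
      have h1 := Subgroup.orderOf_dvd_natCard _ hcP
      rw [show Nat.card (P : Subgroup G) = 9 from H.h9 P] at h1
      exact orderOf_dvd_iff_pow_eq_one.mp h1
    have hc1 : c = 1 := by
      have h1 : c ^ 9 = (c * c) ^ 4 * c := by rw [← sq, ← pow_mul, ← pow_succ]
      rw [hcc, one_pow, one_mul] at h1
      rw [← h1, hc9]
    rw [hc1, mul_one] at hxc
    calc x * u = (u * x * u⁻¹) * u := by rw [hxc]
      _ = u * x := by group
  have hI2 : Nat.card I = 2 := by omega
  rw [hI2] at c2
  have c2' : fx u % 3 = 2 := c2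
  have h4 := fx_inv H.h u hu2
  have hle := fx_le H.h u
  -- a fixed point in A9
  have hzN : zpowers u ≤ normalizer ((P : Subgroup G) : Set G) := by
    rw [Subgroup.zpowers_le]; exact hu
  have c3 := card_inv_set_modEq (α := Sylow 3 G) (p := 2) (zpowers u) hzu (AA 9 P)
    (fun a ha x hx => AA_inv 9 P a (hzN ha) x hx)
  rw [H.a9 P] at c3
  have hne : Nat.card {x : Sylow 3 G | x ∈ AA 9 P ∧ ∀ a ∈ zpowers u, a • x = x} ≠ 0 := by
    intro h0
    rw [h0] at c3
    exact absurd c3 (by decide)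
  obtain ⟨⟨R0, hR0, hfix⟩⟩ : Nonempty {x : Sylow 3 G | x ∈ AA 9 P ∧ ∀ a ∈ zpowers u, a • x = x} :=
    (Nat.card_pos_iff.mp (Nat.pos_of_ne_zero hne)).1
  have huR0 : u • R0 = R0 := hfix u (Subgroup.mem_zpowers u)
  have hlt : Nat.card I < fx u := by
    unfold fx
    rw [Nat.card_coe_set_eq, Nat.card_coe_set_eq]
    apply Set.ncard_lt_ncard _ (Set.toFinite _)
    refine ⟨fun T hT => hT.2, fun hcon => ?_⟩
    have : R0 ∈ I := hcon huR0
    exact not_fix_A9 H P R0 hR0 w hw hw1 this.1
  have hf14 : fx u = 14 := by omega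
  -- upper bound
  obtain ⟨x, hx, hxu⟩ : ∃ x ∈ P, u * x * u⁻¹ ≠ x := by
    by_contra hcon
    push Not at hcon
    apply huC
    rw [Subgroup.mem_centralizer_iff]
    intro x hx
    calc x * u = (u * x * u⁻¹) * u := by rw [hcon x hx]
      _ = u * x := by group
  set y : G := x * (u * x * u⁻¹)⁻¹ with hy
  have hyP : y ∈ P := Subgroup.mul_mem _ hx (Subgroup.inv_mem _ ((hu x).mp hx))
  have hy1 : y ≠ 1 := by
    intro h1
    apply hxu
    rw [hy, mul_inv_eq_one] at h1
    exact h1.symm
  have hfy := fx_P_eq H P y hyP hy1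
  have hfv := fx_conj x u
  have hsub : fixedBy (Sylow 3 G) u ∩ fixedBy (Sylow 3 G) (x * u * x⁻¹) ⊆
      fixedBy (Sylow 3 G) y := by
    rintro T ⟨hT1, hT2⟩
    have hT1' : u • T = T := hT1
    have hT2' : (x * u * x⁻¹) • T = T := hT2
    have hyeq : y = (x * u * x⁻¹) * u⁻¹ := by rw [hy]; group
    change y • T = T
    have h5 : u⁻¹ • T = T := by rw [huinv]; exact hT1'
    rw [hyeq, mul_smul, h5, hT2']
  have h5 := Set.ncard_union_add_ncard_inter (fixedBy (Sylow 3 G) u)
    (fixedBy (Sylow 3 G) (x * u * x⁻¹)) (Set.toFinite _) (Set.toFinite _)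
  have h6 := Set.ncard_le_ncard hsub (Set.toFinite _)
  have h7 : (fixedBy (Sylow 3 G) u ∪ fixedBy (Sylow 3 G) (x * u * x⁻¹)).ncard ≤ 22 := by
    rw [← H.h]; exact Set.ncard_le_card _
  rw [← Nat.card_coe_set_eq (fixedBy (Sylow 3 G) u),
    ← Nat.card_coe_set_eq (fixedBy (Sylow 3 G) (x * u * x⁻¹))] at h5
  rw [← Nat.card_coe_set_eq (fixedBy (Sylow 3 G) y)] at h6
  change _ = fx u + fx (x * u * x⁻¹) at h5
  change _ ≤ fx y at h6
  omega

theorem card_N_dvd (H : HB G) (P : Sylow 3 G) :
    Nat.card (normalizer ((P : Subgroup G) : Set G)) ∣ 72 := by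
  set N := normalizer ((P : Subgroup G) : Set G) with hN
  rw [Nat.dvd_iff_prime_pow_dvd_dvd]
  intro r k hr hrk
  rcases Nat.eq_zero_or_pos k with rfl | hk
  · simp
  haveI : Fact r.Prime := ⟨hr⟩
  have hrN : r ∣ Nat.card N := (dvd_pow_self r hk.ne').trans hrk
  obtain ⟨K, hK⟩ := Sylow.exists_subgroup_card_pow_prime r hrk
  set R : Subgroup G := K.map N.subtype with hR
  have hRN : R ≤ N := Subgroup.map_subtype_le _
  have hRcard : Nat.card R = r ^ k := by rw [hR, Subgroup.card_subtype, hK]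
  obtain ⟨c, hc⟩ := exists_prime_orderOf_dvd_card' r hrN
  have hc' : orderOf (c : G) = r := by rw [Subgroup.orderOf_coe, hc]
  have hr23 : r = 2 ∨ r = 3 := by
    by_contra hcon
    push Not at hcon
    have h5 : 5 ≤ r := by
      have := hr.two_le
      by_contra hlt
      have h4 : r = 4 := by omega
      subst h4
      norm_num at hr
    exact N_prime H P c c.2 r hc' h5
  rcases hr23 with rfl | rfl
  · have h1 := card_dvd_sub_one R (P : Subgroup G) hRN (by
      intro g hg hg1 x hx hgx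
      have h2 := R.orderOf_dvd_natCard hg
      rw [hRcard] at h2
      obtain ⟨j, -, hj⟩ := (Nat.dvd_prime_pow Nat.prime_two).mp h2
      have hj0 : j ≠ 0 := by
        rintro rfl
        rw [pow_zero, orderOf_eq_one_iff] at hj
        exact hg1 hj
      have h3 : 2 ∣ orderOf g := by rw [hj]; exact dvd_pow_self 2 hj0
      have h4 := orderOf_pow_orderOf_div (orderOf_pos g).ne' h3
      apply inv_free H P (g ^ (orderOf g / 2)) (Subgroup.pow_mem _ (hRN hg) _) h4 x hx
      have : Commute g x := hgx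
      exact this.pow_left _)
    rw [hRcard, show Nat.card (P : Subgroup G) = 9 from H.h9 P] at h1
    exact h1.trans (by norm_num)
  · obtain ⟨Q, hQ⟩ := (IsPGroup.of_card hRcard).exists_le_sylow
    have := Subgroup.card_dvd_of_le hQ
    rw [hRcard, show Nat.card (Q : Subgroup G) = 9 from H.h9 Q] at this
    exact this.trans (by norm_num)

theorem caseB_false (H : HB G) : False := by
  obtain ⟨P⟩ : Nonempty (Sylow 3 G) := inferInstance
  obtain ⟨S⟩ : Nonempty (Sylow 11 G) := inferInstance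
  have h72 := card_N_dvd H P
  have h9 : 9 ∣ Nat.card (normalizer ((P : Subgroup G) : Set G)) := by
    have := Subgroup.card_dvd_of_le (Subgroup.le_normalizer (H := (P : Subgroup G)))
    rwa [show Nat.card (P : Subgroup G) = 9 from H.h9 P] at this
  have hS := lemmaS H.h P (fun hd => by
      have := hd.trans h72
      norm_num at this) (fun hd => by
      have := hd.trans h72
      norm_num at this) S
  have hmod : Nat.card (Sylow 11 G) % 11 = 1 := card_sylow_modEq_one 11 G
  rw [hS.2.2.2] at hmod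
  clear hS
  have hle : Nat.card (normalizer ((P : Subgroup G) : Set G)) ≤ 72 :=
    Nat.le_of_dvd (by norm_num) h72
  generalize Nat.card (normalizer ((P : Subgroup G) : Set G)) = n at *
  interval_cases n <;> omega

end

end Cfsg.Agent.Lib.Helper63Syl22d
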