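import Mathlib

/-!
# A group acting faithfully on a finite family is a permutation group (helper64)
-/

set_option autoImplicit false

namespace Cfsg.Agent.Helper64ActPerm

variable {G : Type*} [Group G] {X : Type*} {n : ℕ} {ι : Type*}

theorem apply_inv'' {α : Type*} (σ : Equiv.Perm α) (j : α) : σ (σ⁻¹ j) = j :=
  (Equiv.eq_symm_apply σ).mp rfl

theorem exists_perm (act : G → X → X) (h1 : ∀ x, act 1 x = x)
    (hm : ∀ a b x, act (a * b) x = act a (act b x)) (v : Fin n → X) (g : ι → G)
    (θ : ι → Equiv.Perm (Fin n)) (hgen : Subgroup.closure (Set.range g) = ⊤)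
    (hact : ∀ a j, act (g a) (v j) = v (θ a j)) (x : G) :
    ∃ σ : Equiv.Perm (Fin n), ∀ j, act x (v j) = v (σ j) := by
  have hx : x ∈ Subgroup.closure (Set.range g) := by rw [hgen]; trivial
  induction hx using Subgroup.closure_induction with
  | mem y hy =>
    obtain ⟨a, rfl⟩ := hy
    exact ⟨θ a, hact a⟩
  | one => exact ⟨1, fun j => by simp [h1]⟩
  | mul y z _ _ hy hz =>
    obtain ⟨σ, hσ⟩ := hy
    obtain ⟨τ, hτ⟩ := hz
    exact ⟨σ * τ, fun j => by rw [Equiv.Perm.mul_apply, hm, hτ, hσ]⟩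
  | inv y _ hy =>
    obtain ⟨σ, hσ⟩ := hy
    refine ⟨σ⁻¹, fun j => ?_⟩
    have h2 := hσ (σ⁻¹ j)
    rw [apply_inv''] at h2
    rw [← h2, ← hm, inv_mul_cancel, h1]

theorem equiv_of_faithful (act : G → X → X) (h1 : ∀ x, act 1 x = x)
    (hm : ∀ a b x, act (a * b) x = act a (act b x)) (v : Fin n → X) (hv : Function.Injective v)
    (g : ι → G) (θ : ι → Equiv.Perm (Fin n)) (hgen : Subgroup.closure (Set.range g) = ⊤)
    (hact : ∀ a j, act (g a) (v j) = v (θ a j))
    (hf : ∀ x, (∀ j, act x (v j) = v j) → x = 1) :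
    Nonempty (G ≃* Subgroup.closure (Set.range θ)) := by
  have hex := exists_perm act h1 hm v g θ hgen hact
  choose Φ hΦ using hex
  have huniq : ∀ (x : G) (σ : Equiv.Perm (Fin n)), (∀ j, act x (v j) = v (σ j)) → Φ x = σ := by
    intro x σ hσ
    ext j
    exact congrArg Fin.val (hv ((hΦ x j).symm.trans (hσ j)))
  let Ψ : G →* Equiv.Perm (Fin n) :=
    { toFun := Φ
      map_one' := huniq 1 1 (fun j => by simp [h1])
      map_mul' := fun x y => huniq (x * y) (Φ x * Φ y) (fun j => by
        rw [Equiv.Perm.mul_apply, hm, hΦ, hΦ]) }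
  have hinj : Function.Injective Ψ := by
    rw [injective_iff_map_eq_one]
    intro x hx
    apply hf
    intro j
    have h2 := hΦ x j
    have e : Φ x = 1 := hx
    rw [e] at h2
    simpa using h2
  have hrange : Ψ.range = Subgroup.closure (Set.range θ) := by
    rw [MonoidHom.range_eq_map, ← hgen, MonoidHom.map_closure]
    congr 1
    ext σ
    constructor
    · rintro ⟨_, ⟨a, rfl⟩, rfl⟩
      exact ⟨a, (huniq _ _ (hact a)).symm⟩
    · rintro ⟨a, rfl⟩
      exact ⟨_, ⟨a, rfl⟩, huniq _ _ (hact a)⟩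
  exact ⟨(MonoidHom.ofInjective hinj).trans (MulEquiv.subgroupCongr hrange)⟩

/-- the same for the subgroup generated by a family in an ambient group. -/
theorem closure_equiv (act : G → X → X) (h1 : ∀ x, act 1 x = x)
    (hm : ∀ a b x, act (a * b) x = act a (act b x)) (v : Fin n → X) (hv : Function.Injective v)
    (g : ι → G) (θ : ι → Equiv.Perm (Fin n))
    (hact : ∀ a j, act (g a) (v j) = v (θ a j))
    (hf : ∀ x, (∀ j, act x (v j) = v j) → x = 1) :
    Nonempty (Subgroup.closure (Set.range g) ≃* Subgroup.closure (Set.range θ)) := by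
  let g' : ι → Subgroup.closure (Set.range g) := fun a => ⟨g a, Subgroup.subset_closure ⟨a, rfl⟩⟩
  have htop : Subgroup.closure (Set.range g') = ⊤ := by
    have h3 := Subgroup.closure_closure_coe_preimage (k := Set.range g)
    have h2 : ((↑) ⁻¹' Set.range g : Set (Subgroup.closure (Set.range g))) = Set.range g' := by
      ext x
      constructor
      · rintro ⟨j, hj⟩
        exact ⟨j, Subtype.ext hj⟩
      · rintro ⟨j, rfl⟩
        exact ⟨j, rfl⟩
    rw [h2] at h3
    exact h3
  exact equiv_of_faithful (fun x => act x.1) h1 (fun a b x => hm a.1 b.1 x) v hv g' θ htop hact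
    (fun x hx => Subtype.ext (hf x.1 hx))

end Cfsg.Agent.Helper64ActPerm
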