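import Mathlib
import Cfsg.Agent.Lib.Helper21Action

/-!
# Sylow 2-subgroups of `Aut(A₆)` meet non-trivially (helper64)

The Sylow 2-subgroups are the centralisers of the 45 involutions of `A₆`; the centraliser `C` of `z`
permutes the involutions `w` with `(zw)^3 = 1` (17 of them) and the others (28 of them).
-/

set_option autoImplicit false
set_option linter.unusedSectionVars false

namespace Cfsg.Agent.Helper64AutA6

open Equiv Equiv.Perm Pointwise

abbrev A6 := alternatingGroup (Fin 6)

/-- an involution. -/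
def z0p : Perm (Fin 6) := swap 0 1 * swap 2 3

/-- an involution. -/
def z0 : A6 := ⟨z0p, Equiv.Perm.mem_alternatingGroup.2 (by decide +kernel)⟩

set_option maxRecDepth 100000 in
theorem conj_all : ∀ w : A6, w ^ 2 = 1 → w ≠ 1 → ∃ g : A6, g * z0 * g⁻¹ = w := by decide +kernel

set_option maxRecDepth 100000 in
theorem card_inv : (Finset.univ.filter (fun w : A6 => w ^ 2 = 1 ∧ w ≠ 1)).card = 45 := by
  decide +kernel

set_option maxRecDepth 100000 in
theorem card_B :
    (Finset.univ.filter (fun w : A6 => (w ^ 2 = 1 ∧ w ≠ 1) ∧ (z0 * w) ^ 3 = 1)).card = 17 := by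
  decide +kernel

set_option maxRecDepth 100000 in
theorem card_Bc :
    (Finset.univ.filter (fun w : A6 => (w ^ 2 = 1 ∧ w ≠ 1) ∧ ¬ (z0 * w) ^ 3 = 1)).card = 28 := by
  decide +kernel

theorem z0_inv : z0 ^ 2 = 1 ∧ z0 ≠ 1 := by decide +kernel

theorem card_A6 : Nat.card A6 = 360 := by
  rw [Nat.card_eq_fintype_card]
  decide +kernel

section

variable {G : Type*} [Group G] [Finite G] (N : Subgroup G) [N.Normal] (e : N ≃* A6)

/-- the embedding of `A₆`. -/
def iota : A6 →* G := N.subtype.comp e.symm.toMonoidHom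

theorem iota_inj : Function.Injective (iota N e) := by
  intro a b h
  exact e.symm.injective (Subtype.ext h)

theorem iota_mem (a : A6) : iota N e a ∈ N := (e.symm a).2

theorem exists_iota {x : G} (hx : x ∈ N) : ∃ a, iota N e a = x := ⟨e ⟨x, hx⟩, by simp [iota]⟩

/-- the involutions of `N`. -/
def Inv : Set G := {w | w ∈ N ∧ w ^ 2 = 1 ∧ w ≠ 1}

theorem mem_Inv_iota (a : A6) : iota N e a ∈ Inv N ↔ (a ^ 2 = 1 ∧ a ≠ 1) := by
  constructor
  · rintro ⟨_, h2, h3⟩
    exact ⟨iota_inj N e (by rw [map_pow, h2, map_one]), fun h => h3 (by rw [h, map_one])⟩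
  · rintro ⟨h2, h3⟩
    exact ⟨iota_mem N e a, by rw [← map_pow, h2, map_one],
      fun h => h3 (iota_inj N e (by rw [h, map_one]))⟩

theorem ncard_sub (P : G → Prop) (p : A6 → Prop) [DecidablePred p]
    (h : ∀ a, P (iota N e a) ↔ p a) :
    {w | w ∈ Inv N ∧ P w}.ncard
      = (Finset.univ.filter (fun w : A6 => (w ^ 2 = 1 ∧ w ≠ 1) ∧ p w)).card := by
  have h1 : {w | w ∈ Inv N ∧ P w}
      = iota N e '' ((Finset.univ.filter (fun w : A6 => (w ^ 2 = 1 ∧ w ≠ 1) ∧ p w) : Finset A6) :
        Set A6) := by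
    ext w
    constructor
    · rintro ⟨hw, hP⟩
      obtain ⟨a, rfl⟩ := exists_iota N e hw.1
      refine ⟨a, ?_, rfl⟩
      simp only [Finset.coe_filter, Finset.mem_univ, true_and, Set.mem_ofPred_eq]
      exact ⟨(mem_Inv_iota N e a).1 hw, (h a).1 hP⟩
    · rintro ⟨a, ha, rfl⟩
      simp only [Finset.coe_filter, Finset.mem_univ, true_and, Set.mem_ofPred_eq] at ha
      exact ⟨(mem_Inv_iota N e a).2 ha.1, (h a).2 ha.2⟩
  rw [h1, Set.ncard_image_of_injective _ (iota_inj N e), Set.ncard_coe_finset]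

theorem conj_mem_Inv {w : G} (hw : w ∈ Inv N) (g : G) : g * w * g⁻¹ ∈ Inv N := by
  obtain ⟨h1, h2, h3⟩ := hw
  refine ⟨‹N.Normal›.conj_mem w h1 g, by rw [conj_pow, h2]; simp, fun h => h3 ?_⟩
  have : w = g⁻¹ * (g * w * g⁻¹) * g := by group
  rw [this, h]; simp

theorem z_mem : iota N e z0 ∈ Inv N := (mem_Inv_iota N e z0).2 z0_inv

theorem conj_class : {x : G | IsConj (iota N e z0) x} = Inv N := by
  ext x
  constructor
  · intro hx
    obtain ⟨g, rfl⟩ := isConj_iff.1 hx
    exact conj_mem_Inv N (z_mem N e) g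
  · intro hx
    obtain ⟨a, rfl⟩ := exists_iota N e hx.1
    obtain ⟨h2, h3⟩ := (mem_Inv_iota N e a).1 hx
    obtain ⟨g, rfl⟩ := conj_all a h2 h3
    exact isConj_iff.2 ⟨iota N e g, by simp⟩

include e in
theorem ncard_Inv : (Inv N).ncard = 45 := by
  have h := ncard_sub N e (fun _ => True) (fun _ => True) (fun _ => Iff.rfl)
  simp only [and_true] at h
  rw [card_inv] at h
  exact h

include e in
theorem card_G (hidx : N.index = 4) : Nat.card G = 1440 := by
  rw [← Subgroup.card_mul_index N, hidx, Nat.card_congr e.toEquiv, card_A6]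

theorem card_C (hidx : N.index = 4) :
    Nat.card (Subgroup.centralizer ({iota N e z0} : Set G)) = 32 := by
  have h := Cfsg.Agent.Lib.Helper21Action.card_conj_mul_card_centralizer (iota N e z0)
  have h1 : Nat.card {x : G // IsConj (iota N e z0) x} = 45 := by
    rw [← ncard_Inv N e, ← conj_class N e]
    rfl
  rw [h1, card_G N e hidx] at h
  omega

theorem key (hidx : N.index = 4) (y : G) :
    ∃ c ∈ Subgroup.centralizer ({iota N e z0} : Set G), c ≠ 1 ∧
      c ∈ MulAut.conj y • Subgroup.centralizer ({iota N e z0} : Set G) := by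
  set z := iota N e z0 with hz
  set C := Subgroup.centralizer ({z} : Set G) with hC
  set z' := y * z * y⁻¹ with hz'
  have hz'I : z' ∈ Inv N := conj_mem_Inv N (z_mem N e) y
  set T : Set G := {w | w ∈ Inv N ∧ ((z * w) ^ 3 = 1 ↔ (z * z') ^ 3 = 1)} with hT
  have hTc : T.ncard ≤ 28 := by
    by_cases hq : (z * z') ^ 3 = 1
    · have h1 := ncard_sub N e (fun w => ((z * w) ^ 3 = 1 ↔ (z * z') ^ 3 = 1))
        (fun a => (z0 * a) ^ 3 = 1) (fun a => by
          simp only [hq, iff_true]
          rw [hz, ← map_mul, ← map_pow]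
          constructor
          · intro h; exact iota_inj N e (by rw [h, map_one])
          · intro h; rw [h, map_one])
      rw [card_B] at h1
      rw [hT, h1]; norm_num
    · have h1 := ncard_sub N e (fun w => ((z * w) ^ 3 = 1 ↔ (z * z') ^ 3 = 1))
        (fun a => ¬ (z0 * a) ^ 3 = 1) (fun a => by
          simp only [hq, iff_false]
          rw [hz, ← map_mul, ← map_pow]
          apply not_congr
          constructor
          · intro h; exact iota_inj N e (by rw [h, map_one])
          · intro h; rw [h, map_one])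
      rw [card_Bc] at h1
      rw [hT, h1]
  have hCc : (C : Set G).ncard = 32 := by
    rw [← card_C N e hidx]; rfl
  have hmaps : ∀ c ∈ (C : Set G), c * z' * c⁻¹ ∈ T := by
    intro c hc
    refine ⟨conj_mem_Inv N hz'I c, ?_⟩
    have h1 : z * c = c * z := Subgroup.mem_centralizer_iff.1 hc z rfl
    have h2 : z * (c * z' * c⁻¹) = c * (z * z') * c⁻¹ := by
      rw [← mul_assoc, ← mul_assoc, h1]; group
    rw [h2, conj_pow]
    constructor
    · intro h
      have : (z * z') ^ 3 = c⁻¹ * (c * (z * z') ^ 3 * c⁻¹) * c := by group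
      rw [this, h]; simp
    · intro h; rw [h]; simp
  obtain ⟨c1, hc1, c2, hc2, hne, heq⟩ :=
    Set.exists_ne_map_eq_of_ncard_lt_of_maps_to (s := (C : Set G)) (t := T)
      (by rw [hCc]; omega) hmaps
  refine ⟨c2⁻¹ * c1, C.mul_mem (C.inv_mem hc2) hc1, ?_, ?_⟩
  · intro h
    apply hne
    have : c1 = c2 * (c2⁻¹ * c1) := by group
    rw [this, h, mul_one]
  · rw [Subgroup.mem_pointwise_smul_iff_inv_smul_mem, MulAut.smul_def, ← map_inv,
      MulAut.conj_apply, inv_inv, Subgroup.mem_centralizer_iff]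
    intro w hw
    rw [Set.mem_singleton_iff] at hw
    subst hw
    have h3 : (c2⁻¹ * c1) * z' = z' * (c2⁻¹ * c1) := by
      have : c2⁻¹ * c1 * z' = c2⁻¹ * (c1 * z' * c1⁻¹) * c1 := by group
      rw [this, heq]; group
    have h4 : z = y⁻¹ * z' * y := by rw [hz']; group
    calc z * (y⁻¹ * (c2⁻¹ * c1) * y) = y⁻¹ * (z' * (c2⁻¹ * c1)) * y := by rw [h4]; group
      _ = y⁻¹ * ((c2⁻¹ * c1) * z') * y := by rw [h3]
      _ = y⁻¹ * (c2⁻¹ * c1) * y * z := by rw [h4]; group

include e in
theorem main (hidx : N.index = 4) (H : Sylow 2 G) (x : G) :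
    (H : Subgroup G) ⊓ MulAut.conj x • (H : Subgroup G) ≠ ⊥ := by
  have : Fact (Nat.Prime 2) := ⟨Nat.prime_two⟩
  have hfac : (Nat.card G).factorization 2 = 5 := by
    rw [card_G N e hidx]
    apply le_antisymm
    · by_contra hcon
      rw [not_le] at hcon
      have h64 : 2 ^ 6 ∣ 1440 :=
        (Nat.Prime.pow_dvd_iff_le_factorization Nat.prime_two (by norm_num)).2 hcon
      norm_num at h64
    · exact (Nat.Prime.pow_dvd_iff_le_factorization Nat.prime_two (by norm_num)).1 (by norm_num)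
  let P : Sylow 2 G := Sylow.ofCard (Subgroup.centralizer ({iota N e z0} : Set G))
    (by rw [card_C N e hidx, hfac]; norm_num)
  obtain ⟨g, hg⟩ := MulAction.exists_smul_eq G P H
  have hH : (H : Subgroup G) = MulAut.conj g • Subgroup.centralizer ({iota N e z0} : Set G) := by
    have := congrArg (fun S : Sylow 2 G => (S : Subgroup G)) hg
    exact this.symm
  obtain ⟨c, hc, hc1, hc2⟩ := key N e hidx (g⁻¹ * x * g)
  intro hbot
  have hmem : MulAut.conj g • c ∈ (H : Subgroup G) ⊓ MulAut.conj x • (H : Subgroup G) := by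
    constructor
    · rw [hH]; exact Subgroup.smul_mem_pointwise_smul _ _ _ hc
    · rw [hH, smul_smul, ← map_mul]
      have h5 := Subgroup.smul_mem_pointwise_smul _ (MulAut.conj g) _ hc2
      rw [smul_smul, ← map_mul] at h5
      have h6 : g * (g⁻¹ * x * g) = x * g := by group
      rw [h6] at h5
      exact h5
  rw [hbot, Subgroup.mem_bot, MulAut.smul_def, MulAut.conj_apply] at hmem
  apply hc1
  have : c = g⁻¹ * (g * c * g⁻¹) * g := by group
  rw [this, hmem]; simp

end

end Cfsg.Agent.Helper64AutA6
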