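import Mathlib

/-!
# Enumerating a subgroup generated by involutions from a Cayley table (helper64)
-/

set_option autoImplicit false

namespace Cfsg.Agent.Helper64CayTab

variable {G : Type*} [Group G] {n r : ℕ}

theorem closure_eq_range (v : Fin n → G) (g : Fin r → G) (L : Fin r → Fin n → Fin n)
    (hL : ∀ a j, g a * v j = v (L a j)) (hinv : ∀ a, g a * g a = 1) (j0 : Fin n) (h0 : v j0 = 1)
    (par : Fin n → Fin n) (gen : Fin n → Fin r)
    (hpar : ∀ j, j ≠ j0 → (par j).val < j.val ∧ L (gen j) (par j) = j) :
    ((Subgroup.closure (Set.range g) : Subgroup G) : Set G) = Set.range v := by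
  apply Set.Subset.antisymm
  · intro x hx
    have key : ∀ x ∈ Subgroup.closure (Set.range g),
        (∀ j, ∃ k, x * v j = v k) ∧ (∀ j, ∃ k, x⁻¹ * v j = v k) := by
      intro x hx
      induction hx using Subgroup.closure_induction with
      | mem y hy =>
        obtain ⟨a, rfl⟩ := hy
        have hi : (g a)⁻¹ = g a := inv_eq_of_mul_eq_one_left (hinv a)
        exact ⟨fun j => ⟨_, hL a j⟩, fun j => ⟨_, by rw [hi]; exact hL a j⟩⟩
      | one => exact ⟨fun j => ⟨j, by simp⟩, fun j => ⟨j, by simp⟩⟩
      | mul y z _ _ hy hz =>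
        constructor
        · intro j
          obtain ⟨k, hk⟩ := hz.1 j
          obtain ⟨l, hl⟩ := hy.1 k
          exact ⟨l, by rw [mul_assoc, hk, hl]⟩
        · intro j
          obtain ⟨k, hk⟩ := hy.2 j
          obtain ⟨l, hl⟩ := hz.2 k
          exact ⟨l, by rw [mul_inv_rev, mul_assoc, hk, hl]⟩
      | inv y _ hy => exact ⟨hy.2, fun j => by rw [inv_inv]; exact hy.1 j⟩
    obtain ⟨k, hk⟩ := (key x hx).1 j0
    rw [h0, mul_one] at hk
    exact ⟨k, hk.symm⟩
  · rintro _ ⟨j, rfl⟩
    have key : ∀ m : ℕ, ∀ j : Fin n, j.val = m → v j ∈ Subgroup.closure (Set.range g) := by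
      intro m
      induction m using Nat.strong_induction_on with
      | _ m ih =>
        intro j hj
        by_cases hj0 : j = j0
        · rw [hj0, h0]; exact Subgroup.one_mem _
        · obtain ⟨h1, h2⟩ := hpar j hj0
          rw [← h2, ← hL]
          exact Subgroup.mul_mem _ (Subgroup.subset_closure ⟨_, rfl⟩)
            (ih _ (by omega) (par j) rfl)
    exact key _ j rfl

theorem card_closure (v : Fin n → G) (hv : Function.Injective v) (g : Fin r → G)
    (L : Fin r → Fin n → Fin n)
    (hL : ∀ a j, g a * v j = v (L a j)) (hinv : ∀ a, g a * g a = 1) (j0 : Fin n) (h0 : v j0 = 1)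
    (par : Fin n → Fin n) (gen : Fin n → Fin r)
    (hpar : ∀ j, j ≠ j0 → (par j).val < j.val ∧ L (gen j) (par j) = j) :
    Nat.card (Subgroup.closure (Set.range g)) = n := by
  have h : Nat.card (Subgroup.closure (Set.range g)) = Nat.card (Set.range v) := by
    rw [← closure_eq_range v g L hL hinv j0 h0 par gen hpar]; rfl
  rw [h, Nat.card_range_of_injective hv]
  simp

/-- Sylow subgroups are isomorphic to any subgroup of the right order, also across an
isomorphism of the ambient groups. -/
theorem sylow_equiv {G H : Type*} [Group G] [Group H] [Finite H] (e : G ≃* H) (p k : ℕ)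
    [Fact p.Prime] (hk : (Nat.card H).factorization p = k) (P : Sylow p G) (A : Subgroup H)
    (hA : Nat.card A = p ^ k) : Nonempty ((P : Subgroup G) ≃* A) := by
  have hfin : Finite G := Finite.of_equiv H e.symm.toEquiv
  have hc : Nat.card G = Nat.card H := Nat.card_congr e.toEquiv
  have h1 : Nat.card (P : Subgroup G) = p ^ k := by
    rw [Sylow.card_eq_multiplicity, hc, hk]
  have h2 : Nat.card ((P : Subgroup G).map e.toMonoidHom) = p ^ k := by
    rw [← h1]; exact Subgroup.card_map_of_injective e.injective
  let P1 : Sylow p H := Sylow.ofCard ((P : Subgroup G).map e.toMonoidHom) (by rw [h2, hk])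
  let P2 : Sylow p H := Sylow.ofCard A (by rw [hA, hk])
  exact ⟨((e.subgroupMap (P : Subgroup G))).trans (Sylow.equiv P1 P2)⟩

end Cfsg.Agent.Helper64CayTab
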