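import Mathlib
import Cfsg.Prelude.Def_Transfer
import Cfsg.Agent.Lib.Helper3PGroup
import Cfsg.Agent.S3377

/-!
# Involution centralisers of shape `2^{1+4}_- : A₅` (helper64)

Elementwise conditions for an extraspecial group of order 32 of minus type, and the structure of
a group of order 1920 having such a normal subgroup and a pair of elements satisfying the
relations of the alternating group of degree 5.
-/

set_option autoImplicit false

namespace Cfsg.Agent.Helper64ES

open scoped commutatorElement

/-- elementwise description of `2^{1+4}_-`. -/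
structure ES32 (Q : Type*) [Group Q] (z : Q) : Prop where
  card : Nat.card Q = 32
  z_ne : z ≠ 1
  sq : ∀ r : Q, r * r = 1 ∨ r * r = z
  zc : ∀ r : Q, z * r = r * z
  comm : ∀ r s : Q, r * s = s * r ∨ r * s = z * (s * r)
  cen : ∀ r : Q, (∀ s, s * r = r * s) → r = 1 ∨ r = z
  inv : ∀ r s : Q, r * r = 1 → s * s = 1 → r * s = s * r →
    r = 1 ∨ r = z ∨ s = 1 ∨ s = z ∨ s = r ∨ s = r * z

theorem ES32.congr {Q Q' : Type*} [Group Q] [Group Q'] {z : Q} (h : ES32 Q z) (e : Q ≃* Q') :
    ES32 Q' (e z) where
  card := by rw [← Nat.card_congr e.toEquiv]; exact h.card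
  z_ne := fun h1 => h.z_ne ((map_eq_one_iff e e.injective).mp h1)
  sq := by
    intro r
    obtain ⟨r, rfl⟩ := e.surjective r
    rcases h.sq r with h1 | h1
    · left; rw [← map_mul, h1, map_one]
    · right; rw [← map_mul, h1]
  zc := by
    intro r
    obtain ⟨r, rfl⟩ := e.surjective r
    rw [← map_mul, ← map_mul, h.zc]
  comm := by
    intro r s
    obtain ⟨r, rfl⟩ := e.surjective r
    obtain ⟨s, rfl⟩ := e.surjective s
    rcases h.comm r s with h1 | h1
    · left; rw [← map_mul, ← map_mul, h1]
    · right; rw [← map_mul, ← map_mul, ← map_mul, h1]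
  cen := by
    intro r hr
    obtain ⟨r, rfl⟩ := e.surjective r
    rcases h.cen r (fun s => e.injective (by rw [map_mul, map_mul]; exact hr (e s))) with h1 | h1
    · left; rw [h1, map_one]
    · right; rw [h1]
  inv := by
    intro r s
    obtain ⟨r, rfl⟩ := e.surjective r
    obtain ⟨s, rfl⟩ := e.surjective s
    intro h1 h2 h3
    rw [← map_mul, map_eq_one_iff e e.injective] at h1 h2
    rw [← map_mul, ← map_mul] at h3
    rcases h.inv r s h1 h2 (e.injective h3) with h4 | h4 | h4 | h4 | h4 | h4
    · left; rw [h4, map_one]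
    · right; left; rw [h4]
    · right; right; left; rw [h4, map_one]
    · right; right; right; left; rw [h4]
    · right; right; right; right; left; rw [h4]
    · right; right; right; right; right; rw [h4, map_mul]

section
variable {Q : Type*} [Group Q] {z : Q}

theorem ES32.finite (h : ES32 Q z) : Finite Q :=
  Nat.finite_of_card_ne_zero (by rw [h.card]; norm_num)

theorem ES32.z_sq (h : ES32 Q z) : z * z = 1 := by
  rcases h.sq z with h1 | h1
  · exact h1
  · exact absurd (mul_eq_left.mp h1) h.z_ne

theorem ES32.mem_center (h : ES32 Q z) (r : Q) : r ∈ Subgroup.center Q ↔ r = 1 ∨ r = z := by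
  rw [Subgroup.mem_center_iff]
  constructor
  · exact h.cen r
  · rintro (rfl | rfl)
    · intro s; simp
    · intro s; exact (h.zc s).symm

theorem ES32.center_eq (h : ES32 Q z) : Subgroup.center Q = Subgroup.zpowers z := by
  have ho : orderOf z = 2 := orderOf_eq_prime (by rw [pow_two]; exact h.z_sq) h.z_ne
  ext r
  rw [h.mem_center]
  constructor
  · rintro (h1 | h1)
    · rw [h1]; exact Subgroup.one_mem _
    · rw [h1]; exact Subgroup.mem_zpowers z
  · intro hr
    have := h.finite
    rw [← mem_powers_iff_mem_zpowers, Submonoid.mem_powers_iff] at hr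
    obtain ⟨n, rfl⟩ := hr
    rw [← pow_mod_orderOf, ho]
    have h2 : n % 2 = 0 ∨ n % 2 = 1 := by omega
    rcases h2 with h2 | h2
    · left; rw [h2, pow_zero]
    · right; rw [h2, pow_one]

theorem ES32.card_center (h : ES32 Q z) : Nat.card (Subgroup.center Q) = 2 := by
  rw [h.center_eq, Nat.card_zpowers]
  exact orderOf_eq_prime (by rw [pow_two]; exact h.z_sq) h.z_ne

theorem ES32.exists_noncomm (h : ES32 Q z) : ∃ r s : Q, r * s ≠ s * r := by
  by_contra hcon
  push Not at hcon
  have h1 : Subgroup.center Q = ⊤ := by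
    rw [eq_top_iff]
    intro r _
    rw [Subgroup.mem_center_iff]
    intro s
    exact hcon s r
  have h2 := h.card_center
  rw [h1, Subgroup.card_top, h.card] at h2
  norm_num at h2

theorem ES32.commutator_eq (h : ES32 Q z) : commutator Q = Subgroup.center Q := by
  apply le_antisymm
  · rw [commutator_def, Subgroup.commutator_le]
    intro a _ b _
    rw [h.mem_center, commutatorElement_def]
    rcases h.comm a b with h1 | h1
    · left; rw [h1]; group
    · right; rw [h1]; group
  · obtain ⟨r, s, hrs⟩ := h.exists_noncomm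
    have h1 : r * s = z * (s * r) := (h.comm r s).resolve_left hrs
    have h2 : ⁅r, s⁆ = z := by rw [commutatorElement_def, h1]; group
    have h3 : z ∈ commutator Q := by
      rw [← h2]
      exact Subgroup.commutator_mem_commutator (Subgroup.mem_top _) (Subgroup.mem_top _)
    intro t ht
    rcases (h.mem_center t).mp ht with rfl | rfl
    · exact Subgroup.one_mem _
    · exact h3

theorem ES32.extraspecial (h : ES32 Q z) : Cfsg.IsExtraspecial 2 Q := by
  have := h.finite
  have : Fact (Nat.Prime 2) := ⟨Nat.prime_two⟩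
  have hP : IsPGroup 2 Q := IsPGroup.of_card (n := 5) (by rw [h.card]; norm_num)
  refine ⟨⟨hP, ?_, h.commutator_eq⟩, h.card_center⟩
  apply le_antisymm
  · apply Cfsg.Agent.Lib.Helper3PGroup.frattini_le_of_elementary (p := 2)
    · rw [h.commutator_eq]
    · intro x
      rw [h.mem_center, pow_two]
      exact h.sq x
  · rw [← h.commutator_eq]
    exact Cfsg.Agent.Lib.Helper3PGroup.commutator_le_frattini hP

theorem ES32.rank (h : ES32 Q z) (E : Subgroup Q) (hE : Cfsg.IsElementaryAbelian 2 E) :
    Nat.card E ≤ 2 ^ 2 := by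
  classical
  have := h.finite
  obtain ⟨hc, h2⟩ := hE
  have hsq : ∀ a ∈ E, a * a = 1 := fun a ha => by rw [← pow_two]; exact h2 a ha
  have hcm : ∀ a ∈ E, ∀ b ∈ E, a * b = b * a := by
    intro a ha b hb
    have := hc.is_comm.comm (⟨a, ha⟩ : E) ⟨b, hb⟩
    exact congrArg Subtype.val this
  have key : ∃ a : Q, (E : Set Q) ⊆ (({1, z, a, a * z} : Finset Q) : Set Q) := by
    by_cases hex : ∃ a ∈ E, a ≠ 1 ∧ a ≠ z
    · obtain ⟨a, ha, ha1, haz⟩ := hex
      refine ⟨a, fun s hs => ?_⟩
      have := h.inv a s (hsq a ha) (hsq s hs) (hcm a ha s hs)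
      simp only [Finset.coe_insert, Finset.coe_singleton, Set.mem_insert_iff,
        Set.mem_singleton_iff]
      tauto
    · push Not at hex
      refine ⟨1, fun s hs => ?_⟩
      simp only [Finset.coe_insert, Finset.coe_singleton, Set.mem_insert_iff,
        Set.mem_singleton_iff]
      by_cases hs1 : s = 1
      · left; exact hs1
      · right; left; exact hex s hs hs1
  obtain ⟨a, ha⟩ := key
  calc Nat.card E = (E : Set Q).ncard := rfl
    _ ≤ ((({1, z, a, a * z} : Finset Q) : Set Q)).ncard := Set.ncard_le_ncard ha (Set.toFinite _)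
    _ = ({1, z, a, a * z} : Finset Q).card := Set.ncard_coe_finset _
    _ ≤ 2 ^ 2 := Finset.card_le_four

end

/-! ### the alternating group of degree 5 -/

theorem exists_hom_A5 {K : Type*} [Group K] (u v : K) (hu : u ^ 3 = 1) (hv : v ^ 5 = 1)
    (huv : (u * v) ^ 2 = 1) (hu1 : u ≠ 1) :
    ∃ φ : alternatingGroup (Fin 5) →* K, Function.Injective φ := by
  obtain ⟨e⟩ := Cfsg.Agent.S3377.result
  have hrel : ∀ r ∈ ({FreeGroup.of (0 : Fin 2) ^ 3, FreeGroup.of (1 : Fin 2) ^ 5,
        (FreeGroup.of (0 : Fin 2) * FreeGroup.of 1) ^ 2} : Set (FreeGroup (Fin 2))),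
      FreeGroup.lift ![u, v] r = 1 := by
    rintro r (rfl | rfl | rfl)
    · simpa using hu
    · simpa using hv
    · simpa using huv
  let ψ := PresentedGroup.toGroup hrel
  let φ : alternatingGroup (Fin 5) →* K := ψ.comp e.symm.toMonoidHom
  refine ⟨φ, ?_⟩
  have hs : IsSimpleGroup (alternatingGroup (Fin 5)) := alternatingGroup.isSimpleGroup (by simp)
  rcases φ.normal_ker.eq_bot_or_eq_top with h | h
  · exact (MonoidHom.ker_eq_bot_iff φ).mp h
  · exfalso
    apply hu1
    have h1 : e (PresentedGroup.of 0) ∈ φ.ker := by rw [h]; trivial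
    rw [MonoidHom.mem_ker] at h1
    have h2 : φ (e (PresentedGroup.of 0)) = ψ (PresentedGroup.of 0) := by
      show ψ (e.symm (e _)) = _
      rw [e.symm_apply_apply]
    rw [h2] at h1
    have h3 : ψ (PresentedGroup.of 0) = u := by
      show PresentedGroup.toGroup hrel (PresentedGroup.of 0) = u
      rw [PresentedGroup.toGroup.of]
      rfl
    rw [← h3, h1]

theorem card_A5 : Nat.card (alternatingGroup (Fin 5)) = 60 := by
  rw [Nat.card_eq_fintype_card]
  decide +kernel

/-- the structure of a group of order 1920 with the data. -/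
theorem struct_of {K : Type*} [Group K] (hK : Nat.card K = 1920) (Q : Subgroup K) [hQn : Q.Normal]
    (z : Q) (hQ : ES32 Q z) (u v : K) (hu : u ^ 3 = 1) (hv : v ^ 5 = 1) (huv : (u * v) ^ 2 = 1)
    (hu1 : u ≠ 1) :
    Cfsg.IsExtraspecial 2 Q ∧ Nat.card Q = 32 ∧
      (∀ E : Subgroup Q, Cfsg.IsElementaryAbelian 2 E → Nat.card E ≤ 2 ^ 2) ∧
      (∃ H : Subgroup K, Q.IsComplement' H) ∧
      Nonempty (K ⧸ Q ≃* alternatingGroup (Fin 5)) := by
  have hfin : Finite K := Nat.finite_of_card_ne_zero (by rw [hK]; norm_num)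
  obtain ⟨φ, hφ⟩ := exists_hom_A5 u v hu hv huv hu1
  have hs : IsSimpleGroup (alternatingGroup (Fin 5)) := alternatingGroup.isSimpleGroup (by simp)
  have hcR : Nat.card φ.range = 60 := by
    rw [← Nat.card_congr (MonoidHom.ofInjective hφ).toEquiv, card_A5]
  have hcomap : Q.comap φ = ⊥ := by
    rcases (hQn.comap φ).eq_bot_or_eq_top with h | h
    · exact h
    · exfalso
      have h1 : φ.range ≤ Q := by
        rintro _ ⟨a, rfl⟩
        have : a ∈ Q.comap φ := by rw [h]; trivial
        exact this
      have h2 := Subgroup.card_le_of_le h1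
      rw [hcR, hQ.card] at h2
      norm_num at h2
  have hdisj : Disjoint Q φ.range := by
    rw [Subgroup.disjoint_def]
    rintro _ hx ⟨a, rfl⟩
    have : a ∈ Q.comap φ := hx
    rw [hcomap, Subgroup.mem_bot] at this
    rw [this, map_one]
  have hcompl : Q.IsComplement' φ.range :=
    Subgroup.isComplement'_of_card_mul_and_disjoint (by rw [hQ.card, hcR, hK]) hdisj
  refine ⟨hQ.extraspecial, hQ.card, hQ.rank, ⟨φ.range, hcompl⟩, ?_⟩
  let χ : alternatingGroup (Fin 5) →* K ⧸ Q := (QuotientGroup.mk' Q).comp φ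
  have hχ : Function.Injective χ := by
    rw [injective_iff_map_eq_one]
    intro a ha
    have h1 : φ a ∈ Q := (QuotientGroup.eq_one_iff _).mp ha
    have : a ∈ Q.comap φ := h1
    rwa [hcomap, Subgroup.mem_bot] at this
  have hcq : Nat.card (K ⧸ Q) = 60 := by
    have h1 := Subgroup.card_eq_card_quotient_mul_card_subgroup Q
    rw [hK, hQ.card] at h1
    omega
  have hbij : Function.Bijective χ :=
    Function.Injective.bijective_of_nat_card_le hχ (by rw [hcq, card_A5])
  exact ⟨(MulEquiv.ofBijective χ hbij).symm⟩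

/-- the same through a central quotient of odd order. -/
theorem struct_map {H Γ : Type*} [Group H] [Group Γ] [Finite H] (π : H →* Γ)
    (hπ : Function.Surjective π) (hker : π.ker = Subgroup.center H)
    (h2 : ∀ z ∈ Subgroup.center H, ∀ k : ℕ, z ^ (2 ^ k) = 1 → z = 1)
    (x : H) (hx2 : x * x = 1) (C R : Subgroup H) (hC : ∀ g, g * x = x * g → g ∈ C)
    (hC' : ∀ g ∈ C, g * x = x * g) (hRC : R ≤ C) (hN : C ≤ Subgroup.normalizer (R : Set H))
    (z : R) (hR : ES32 R z) (k : ℕ) (hk : 0 < k) (hcardH : Nat.card H = k * Nat.card Γ)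
    (hcardC : Nat.card C = k * 1920) (u v : H) (huC : u ∈ C) (hvC : v ∈ C) (hu : u ^ 3 = 1)
    (hv : v ^ 5 = 1) (huv : (u * v) ^ 2 = 1) (hu1 : u ∉ Subgroup.center H) :
    ∃ (Q : Subgroup (Subgroup.centralizer ({π x} : Set Γ))) (_ : Q.Normal),
      Cfsg.IsExtraspecial 2 Q ∧ Nat.card Q = 32 ∧
      (∀ E : Subgroup Q, Cfsg.IsElementaryAbelian 2 E → Nat.card E ≤ 2 ^ 2) ∧
      (∃ L : Subgroup (Subgroup.centralizer ({π x} : Set Γ)), Q.IsComplement' L) ∧
      Nonempty (Subgroup.centralizer ({π x} : Set Γ) ⧸ Q ≃* alternatingGroup (Fin 5)) := by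
  have hfinΓ : Finite Γ := Finite.of_surjective π hπ
  have hmemK : ∀ γ : Γ, γ ∈ Subgroup.centralizer ({π x} : Set Γ) ↔ γ * π x = π x * γ := by
    intro γ
    rw [Subgroup.mem_centralizer_singleton_iff]
  have hKeq : Subgroup.centralizer ({π x} : Set Γ) = C.map π := by
    ext γ
    rw [hmemK]
    constructor
    · intro hγ
      obtain ⟨g, rfl⟩ := hπ γ
      obtain ⟨c, hc⟩ : ∃ c, c = g * x * g⁻¹ * x⁻¹ := ⟨_, rfl⟩
      have hcz : c ∈ Subgroup.center H := by
        rw [← hker, MonoidHom.mem_ker, hc]
        simp only [map_mul, map_inv]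
        rw [hγ]
        group
      have h3 : g * x * g⁻¹ = c * x := by rw [hc]; group
      have h4 : c * c = 1 := by
        have h5 : (g * x * g⁻¹) * (g * x * g⁻¹) = 1 := by
          calc _ = g * (x * x) * g⁻¹ := by group
            _ = 1 := by rw [hx2]; group
        rw [h3] at h5
        have hxc : x * c = c * x := Subgroup.mem_center_iff.mp hcz x
        have h6 : c * x * (c * x) = c * c * (x * x) := by
          calc c * x * (c * x) = c * (x * c) * x := by group
            _ = c * c * (x * x) := by rw [hxc]; group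
        rw [h6, hx2, mul_one] at h5
        exact h5
      have h5 : c = 1 := h2 c hcz 1 (by rw [pow_one, pow_two]; exact h4)
      rw [h5, one_mul] at h3
      exact ⟨g, hC g (mul_inv_eq_iff_eq_mul.mp h3), rfl⟩
    · rintro ⟨g, hg, rfl⟩
      rw [← map_mul, ← map_mul, hC' g hg]
  have hkerC : π.ker ≤ C := by
    intro c hc
    rw [hker] at hc
    exact hC c (Subgroup.mem_center_iff.mp hc x).symm
  have hcardK : Nat.card (Subgroup.centralizer ({π x} : Set Γ)) = 1920 := by
    rw [hKeq]
    have h3 : (C.map π).index = C.index := Subgroup.index_map_eq C hπ hkerC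
    have h4 := (C.map π).card_mul_index
    have h5 := C.card_mul_index
    rw [h3] at h4
    rw [hcardC, hcardH, ← h4] at h5
    have hpos : 0 < C.index := Nat.pos_of_ne_zero (Subgroup.index_ne_zero_of_finite)
    have h6 : k * (1920 * C.index) = k * (Nat.card (C.map π) * C.index) := by
      rw [← h5]; ring
    have h7 := Nat.eq_of_mul_eq_mul_left hk h6
    exact (Nat.eq_of_mul_eq_mul_right hpos h7).symm
  have hRK : R.map π ≤ Subgroup.centralizer ({π x} : Set Γ) := by
    rw [hKeq]; exact Subgroup.map_mono hRC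
  have hnorm : ((R.map π).subgroupOf (Subgroup.centralizer ({π x} : Set Γ))).Normal := by
    rw [Subgroup.normal_subgroupOf_iff_le_normalizer hRK, hKeq]
    exact (Subgroup.map_mono hN).trans (Subgroup.le_normalizer_map π)
  have hP : IsPGroup 2 R := IsPGroup.of_card (n := 5) (by rw [hR.card]; norm_num)
  have hinj : Function.Injective (π.comp R.subtype) := by
    rw [injective_iff_map_eq_one]
    intro t ht
    have h1 : t.1 ∈ Subgroup.center H := by rw [← hker]; exact ht
    obtain ⟨k, hk⟩ := hP t
    exact Subtype.ext (h2 t.1 h1 k (congrArg Subtype.val hk))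
  have hrange : (π.comp R.subtype).range = R.map π := by
    rw [MonoidHom.range_eq_map, ← Subgroup.map_map, ← MonoidHom.range_eq_map,
      Subgroup.range_subtype]
  let e : R ≃* (R.map π).subgroupOf (Subgroup.centralizer ({π x} : Set Γ)) :=
    ((MonoidHom.ofInjective hinj).trans (MulEquiv.subgroupCongr hrange)).trans
      (Subgroup.subgroupOfEquivOfLe hRK).symm
  have huK : π u ∈ Subgroup.centralizer ({π x} : Set Γ) := by rw [hKeq]; exact ⟨u, huC, rfl⟩
  have hvK : π v ∈ Subgroup.centralizer ({π x} : Set Γ) := by rw [hKeq]; exact ⟨v, hvC, rfl⟩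
  refine ⟨(R.map π).subgroupOf (Subgroup.centralizer ({π x} : Set Γ)), hnorm, ?_⟩
  exact struct_of hcardK _ (e z) (hR.congr e) ⟨π u, huK⟩ ⟨π v, hvK⟩
    (Subtype.ext (by simp [← map_pow, hu])) (Subtype.ext (by simp [← map_pow, hv]))
    (Subtype.ext (by
      show (π u * π v) ^ 2 = 1
      rw [← map_mul, ← map_pow, huv, map_one]))
    (fun h => hu1 (by rw [← hker]; exact congrArg Subtype.val h))

end Cfsg.Agent.Helper64ES
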