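import Cfsg.Agent.Lib.Helper64J3Rep
import Cfsg.Agent.Lib.Helper64ES32

/-!
# Checking a coded subgroup of order 32 to be extraspecial of minus type (helper64)
-/

set_option autoImplicit false

namespace Cfsg.Agent.Helper64J3

open Cfsg.Spor Cfsg.Agent.Helper64ES

def anyB (n : ℕ) (f : ℕ → Bool) : Bool := !(allB n fun i => !(f i))

theorem anyB_iff (n : ℕ) (f : ℕ → Bool) : anyB n f = true ↔ ∃ i < n, f i = true := by
  unfold anyB
  rw [Bool.not_eq_true', ← Bool.not_eq_true, allB_iff]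
  push Not
  simp

/-- `RT` lists the subgroup generated by the eleven elements `QT`. -/
def rtOK (QT RT : ℕ → ℕ) (i : ℕ) : Bool :=
  anyB 11 (fun a => anyB 11 fun b => Nat.beq (RT i) (mulC (QT a) (QT b))) &&
  allB 11 (fun j => anyB 32 fun k => Nat.beq (mulC (QT j) (RT i)) (RT k)) &&
  allB i (fun j => neC (RT i) (RT j))

/-- the elementwise conditions. -/
def esOK (RT : ℕ → ℕ) (i : ℕ) : Bool :=
  (Nat.beq (mulC (RT i) (RT i)) (RT 0) || Nat.beq (mulC (RT i) (RT i)) (RT 1)) &&
  Nat.beq (mulC (RT 1) (RT i)) (mulC (RT i) (RT 1)) &&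
  (Nat.beq i 0 || Nat.beq i 1 ||
    anyB 32 fun j => neC (mulC (RT j) (RT i)) (mulC (RT i) (RT j))) &&
  allB 32 fun j =>
    (Nat.beq (mulC (RT i) (RT j)) (mulC (RT j) (RT i)) ||
      Nat.beq (mulC (RT i) (RT j)) (mulC (RT 1) (mulC (RT j) (RT i)))) &&
    (neC (mulC (RT i) (RT i)) (RT 0) || neC (mulC (RT j) (RT j)) (RT 0) ||
      neC (mulC (RT i) (RT j)) (mulC (RT j) (RT i)) || Nat.beq i 0 || Nat.beq i 1 ||
      Nat.beq j 0 || Nat.beq j 1 || Nat.beq j i || Nat.beq (RT j) (mulC (RT i) (RT 1)))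

section
variable {F : Type*} [Field F] {ω : F} [Om F ω]

theorem rtab_of_check {QT RT : ℕ → ℕ} (q : Fin 11 → GL F9 F) (hq : ∀ j, Rep ω (q j) (QT j.val))
    (hlt : ∀ i, RT i < P162) (h0 : RT 0 = cOne) (h : allB 32 (rtOK QT RT) = true) :
    GTab ω (Subgroup.closure (Set.range q)) RT 32 := by
  rw [allB_iff] at h
  have hclos := exists_eq_of_mem_closure (Set.range q)
    (fun i : Fin 32 => toMat ω (RT i.val)) ⟨0, by norm_num⟩ (by simp only; rw [h0, toMat_cOne]) (by
      rintro _ ⟨j, rfl⟩ i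
      have h1 := h i.val i.isLt
      simp only [rtOK, Bool.and_eq_true] at h1
      have h2 := (allB_iff _ _).mp h1.1.2 j.val j.isLt
      obtain ⟨k, hk, h3⟩ := (anyB_iff _ _).mp h2
      refine ⟨⟨k, hk⟩, ?_⟩
      simp only
      rw [hq j, ← toMat_mulC, Nat.eq_of_beq_eq_true h3])
  refine
    { lt := hlt
      of_mem := fun g hg => by
        obtain ⟨i, hi⟩ := hclos g hg
        exact ⟨i.val, i.isLt, hi⟩
      mem := fun i hi => ?_
      inj := ?_ }
  · have h1 := h i hi
    simp only [rtOK, Bool.and_eq_true] at h1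
    obtain ⟨a, ha, h2⟩ := (anyB_iff _ _).mp h1.1.1
    obtain ⟨b, hb, h3⟩ := (anyB_iff _ _).mp h2
    refine ⟨q ⟨a, ha⟩ * q ⟨b, hb⟩, Subgroup.mul_mem _ (Subgroup.subset_closure ⟨_, rfl⟩)
      (Subgroup.subset_closure ⟨_, rfl⟩), ?_⟩
    exact ((hq ⟨a, ha⟩).mul (hq ⟨b, hb⟩)).cast (Nat.eq_of_beq_eq_true h3).symm
  · have key : ∀ i < 32, ∀ j < i, RT i ≠ RT j := by
      intro i hi j hj hij
      have h1 := h i hi
      simp only [rtOK, Bool.and_eq_true] at h1
      have h2 := (allB_iff _ _).mp h1.2 j hj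
      rw [hij] at h2
      simp [neC] at h2
    intro i hi j hj hij
    rcases lt_trichotomy i j with h1 | h1 | h1
    · exact absurd hij.symm (key j hj i h1)
    · exact h1
    · exact absurd hij (key i hi j h1)

theorem es32_of_check {S : Subgroup (GL F9 F)} {RT : ℕ → ℕ} (hT : GTab ω S RT 32)
    (h0 : RT 0 = cOne) (z : S) (hz : Rep ω z.1 (RT 1)) (h : allB 32 (esOK RT) = true) :
    ES32 S z := by
  rw [allB_iff] at h
  have h1' : Rep ω (1 : GL F9 F) (RT 0) := Rep.one.cast h0.symm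
  have hidx : ∀ (r : S) (i : ℕ), i < 32 → Rep ω r.1 (RT i) → ∀ j < 32, Rep ω r.1 (RT j) → i = j := by
    intro r i hi hr j hj hr'
    have h5 := hr.code_eq hr'
    rw [Nat.mod_eq_of_lt (hT.lt _), Nat.mod_eq_of_lt (hT.lt _)] at h5
    exact hT.inj _ hi _ hj h5
  refine
    { card := hT.card
      z_ne := ?_
      sq := ?_
      zc := ?_
      comm := ?_
      cen := ?_
      inv := ?_ }
  · intro hz1
    have h2 : Rep ω z.1 (RT 0) := by rw [hz1]; exact h1'
    have := hidx z 1 (by norm_num) hz 0 (by norm_num) h2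
    norm_num at this
  · intro r
    obtain ⟨i, hi, hr⟩ := hT.of_mem r.1 r.2
    have hc := h i hi
    simp only [esOK, Bool.and_eq_true, Bool.or_eq_true, Nat.beq_eq] at hc
    rcases hc.1.1.1 with h2 | h2
    · left; exact Subtype.ext (((hr.mul hr).cast h2).ext h1')
    · right; exact Subtype.ext (((hr.mul hr).cast h2).ext hz)
  · intro r
    obtain ⟨i, hi, hr⟩ := hT.of_mem r.1 r.2
    have hc := h i hi
    simp only [esOK, Bool.and_eq_true, Bool.or_eq_true, Nat.beq_eq] at hc
    exact Subtype.ext (((hz.mul hr).cast hc.1.1.2).ext (hr.mul hz))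
  · intro r s
    obtain ⟨i, hi, hr⟩ := hT.of_mem r.1 r.2
    obtain ⟨j, hj, hs⟩ := hT.of_mem s.1 s.2
    have hc := h i hi
    simp only [esOK, Bool.and_eq_true] at hc
    have hc2 := (allB_iff _ _).mp hc.2 j hj
    simp only [Bool.and_eq_true, Bool.or_eq_true, Nat.beq_eq] at hc2
    rcases hc2.1 with h2 | h2
    · left; exact Subtype.ext (((hr.mul hs).cast h2).ext (hs.mul hr))
    · right; exact Subtype.ext (((hr.mul hs).cast h2).ext (hz.mul (hs.mul hr)))
  · intro r hcen
    obtain ⟨i, hi, hr⟩ := hT.of_mem r.1 r.2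
    have hc := h i hi
    simp only [esOK, Bool.and_eq_true, Bool.or_eq_true, Nat.beq_eq] at hc
    rcases hc.1.2 with (h2 | h2) | h2
    · left; subst h2; exact Subtype.ext (hr.ext h1')
    · right; subst h2; exact Subtype.ext (hr.ext hz)
    · exfalso
      obtain ⟨j, hj, h3⟩ := (anyB_iff _ _).mp h2
      obtain ⟨s, hsS, hs⟩ := hT.mem j hj
      exact (hs.mul hr).ne (hr.mul hs) h3 (congrArg Subtype.val (hcen ⟨s, hsS⟩))
  · intro r s hr2 hs2 hrs
    obtain ⟨i, hi, hr⟩ := hT.of_mem r.1 r.2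
    obtain ⟨j, hj, hs⟩ := hT.of_mem s.1 s.2
    have hc := h i hi
    simp only [esOK, Bool.and_eq_true] at hc
    have hc2 := (allB_iff _ _).mp hc.2 j hj
    simp only [Bool.and_eq_true, Bool.or_eq_true, Nat.beq_eq] at hc2
    rcases hc2.2 with (((((((h2 | h2) | h2) | h2) | h2) | h2) | h2) | h2) | h2
    · exact absurd (congrArg Subtype.val hr2) ((hr.mul hr).ne h1' h2)
    · exact absurd (congrArg Subtype.val hs2) ((hs.mul hs).ne h1' h2)
    · exact absurd (congrArg Subtype.val hrs) ((hr.mul hs).ne (hs.mul hr) h2)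
    · left; subst h2; exact Subtype.ext (hr.ext h1')
    · right; left; subst h2; exact Subtype.ext (hr.ext hz)
    · right; right; left; subst h2; exact Subtype.ext (hs.ext h1')
    · right; right; right; left; subst h2; exact Subtype.ext (hs.ext hz)
    · right; right; right; right; left; subst h2; exact Subtype.ext (hs.ext hr)
    · right; right; right; right; right; exact Subtype.ext ((hs.cast h2).ext (hr.mul hz))

end

end Cfsg.Agent.Helper64J3
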