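import Mathlib
import Cfsg.Prelude.Def_Sz

set_option autoImplicit false

namespace Cfsg.Agent.Lib.Helper64Suzuki

open Matrix Polynomial Cfsg.Lie

section generalities

variable {R : Type*} [CommRing R]

def e2 (A : Matrix (Fin 4) (Fin 4) R) : R :=
  (A 0 0 * A 1 1 - A 1 0 * A 0 1) + (A 0 0 * A 2 2 - A 2 0 * A 0 2) + (A 0 0 * A 3 3 - A 3 0 * A 0 3)
  + (A 1 1 * A 2 2 - A 2 1 * A 1 2) + (A 1 1 * A 3 3 - A 3 1 * A 1 3) + (A 2 2 * A 3 3 - A 3 2 * A 2 3)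

theorem det4 (A : Matrix (Fin 4) (Fin 4) R) : A.det =
    A 0 0 * (A 1 1 * A 2 2 * A 3 3 - A 1 1 * A 2 3 * A 3 2 - A 1 2 * A 2 1 * A 3 3 + A 1 2 * A 2 3 * A 3 1 + A 1 3 * A 2 1 * A 3 2 - A 1 3 * A 2 2 * A 3 1)
  - A 0 1 * (A 1 0 * A 2 2 * A 3 3 - A 1 0 * A 2 3 * A 3 2 - A 1 2 * A 2 0 * A 3 3 + A 1 2 * A 2 3 * A 3 0 + A 1 3 * A 2 0 * A 3 2 - A 1 3 * A 2 2 * A 3 0)
  + A 0 2 * (A 1 0 * A 2 1 * A 3 3 - A 1 0 * A 2 3 * A 3 1 - A 1 1 * A 2 0 * A 3 3 + A 1 1 * A 2 3 * A 3 0 + A 1 3 * A 2 0 * A 3 1 - A 1 3 * A 2 1 * A 3 0)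
  - A 0 3 * (A 1 0 * A 2 1 * A 3 2 - A 1 0 * A 2 2 * A 3 1 - A 1 1 * A 2 0 * A 3 2 + A 1 1 * A 2 2 * A 3 0 + A 1 2 * A 2 0 * A 3 1 - A 1 2 * A 2 1 * A 3 0) := by
  rw [Matrix.det_succ_row_zero]
  simp only [Fin.sum_univ_four, Matrix.det_fin_three, Matrix.submatrix_apply]
  simp [Fin.succAbove]
  ring

def e3 (A : Matrix (Fin 4) (Fin 4) R) : R :=
    (A 1 1 * A 2 2 * A 3 3 - A 1 1 * A 2 3 * A 3 2 - A 1 2 * A 2 1 * A 3 3 + A 1 2 * A 2 3 * A 3 1 + A 1 3 * A 2 1 * A 3 2 - A 1 3 * A 2 2 * A 3 1)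
  + (A 0 0 * A 2 2 * A 3 3 - A 0 0 * A 2 3 * A 3 2 - A 0 2 * A 2 0 * A 3 3 + A 0 2 * A 2 3 * A 3 0 + A 0 3 * A 2 0 * A 3 2 - A 0 3 * A 2 2 * A 3 0)
  + (A 0 0 * A 1 1 * A 3 3 - A 0 0 * A 1 3 * A 3 1 - A 0 1 * A 1 0 * A 3 3 + A 0 1 * A 1 3 * A 3 0 + A 0 3 * A 1 0 * A 3 1 - A 0 3 * A 1 1 * A 3 0)
  + (A 0 0 * A 1 1 * A 2 2 - A 0 0 * A 1 2 * A 2 1 - A 0 1 * A 1 0 * A 2 2 + A 0 1 * A 1 2 * A 2 0 + A 0 2 * A 1 0 * A 2 1 - A 0 2 * A 1 1 * A 2 0)

theorem charpoly4 (A : Matrix (Fin 4) (Fin 4) R) : A.charpoly =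
    X ^ 4 - C (A.trace) * X ^ 3 + C (e2 A) * X ^ 2 - C (e3 A) * X + C A.det := by
  rw [Matrix.charpoly, det4, det4 A]
  simp only [Matrix.charmatrix_apply, Matrix.trace, Fin.sum_univ_four, Matrix.diag, e2, e3]
  simp only [Matrix.diagonal_apply_eq, ne_eq, Fin.reduceEq, not_false_eq_true,
    Matrix.diagonal_apply_ne, map_add, map_sub, map_mul]
  ring

theorem e3_eq_trace_adjugate (A : Matrix (Fin 4) (Fin 4) R) : e3 A = (adjugate A).trace := by
  simp only [Matrix.trace, Fin.sum_univ_four, Matrix.diag, Matrix.adjugate_fin_succ_eq_det_submatrix,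
    Matrix.det_fin_three, Matrix.submatrix_apply, e3]
  simp [Fin.succAbove]
  ring

/-- Cauchy-Binet for `2 × 2` minors of `4 × 4` matrices. -/
theorem cauchy_binet (A B : Matrix (Fin 4) (Fin 4) R) (k l i j : Fin 4) :
    (A * B) k i * (A * B) l j - (A * B) l i * (A * B) k j =
      (A k 0 * A l 1 - A l 0 * A k 1) * (B 0 i * B 1 j - B 1 i * B 0 j)
    + (A k 0 * A l 2 - A l 0 * A k 2) * (B 0 i * B 2 j - B 2 i * B 0 j)
    + (A k 1 * A l 3 - A l 1 * A k 3) * (B 1 i * B 3 j - B 3 i * B 1 j)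
    + (A k 2 * A l 3 - A l 2 * A k 3) * (B 2 i * B 3 j - B 3 i * B 2 j)
    + (A k 0 * A l 3 - A l 0 * A k 3) * (B 0 i * B 3 j - B 3 i * B 0 j)
    + (A k 1 * A l 2 - A l 1 * A k 2) * (B 1 i * B 2 j - B 2 i * B 1 j) := by
  simp only [Matrix.mul_apply, Fin.sum_univ_four]
  ring

def J4 : Matrix (Fin 4) (Fin 4) R := !![0,0,0,1;0,0,1,0;0,1,0,0;1,0,0,0]

theorem J4_mul_J4 : (J4 : Matrix (Fin 4) (Fin 4) R) * J4 = 1 := by
  ext i j
  fin_cases i <;> fin_cases j <;> simp [J4, Matrix.mul_apply, Fin.sum_univ_four]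

theorem det_J4 : (J4 : Matrix (Fin 4) (Fin 4) R).det = 1 := by
  rw [det4]; simp [J4]

def IsSp (A : Matrix (Fin 4) (Fin 4) R) : Prop := Aᵀ * J4 * A = J4

theorem IsSp.left_inv {A : Matrix (Fin 4) (Fin 4) R} (h : IsSp A) : (J4 * Aᵀ * J4) * A = 1 := by
  rw [Matrix.mul_assoc, Matrix.mul_assoc, ← Matrix.mul_assoc Aᵀ, h, J4_mul_J4]

theorem IsSp.right_inv {A : Matrix (Fin 4) (Fin 4) R} (h : IsSp A) : A * (J4 * Aᵀ * J4) = 1 :=
  mul_eq_one_comm.mp h.left_inv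

theorem IsSp.row {A : Matrix (Fin 4) (Fin 4) R} (h : IsSp A) : A * J4 * Aᵀ = J4 := by
  have h1 := h.right_inv
  calc A * J4 * Aᵀ = (A * (J4 * Aᵀ * J4)) * J4 := by
        simp only [Matrix.mul_assoc, J4_mul_J4, Matrix.mul_one]
    _ = J4 := by rw [h1, Matrix.one_mul]

theorem IsSp.col_entry {A : Matrix (Fin 4) (Fin 4) R} (h : IsSp A) (i j : Fin 4) :
    A 0 i * A 3 j + A 1 i * A 2 j + A 2 i * A 1 j + A 3 i * A 0 j = J4 i j := by
  have := congrFun (congrFun h i) j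
  rw [← this]
  simp [Matrix.mul_apply, Fin.sum_univ_four, J4]
  ring

theorem IsSp.row_entry {A : Matrix (Fin 4) (Fin 4) R} (h : IsSp A) (k l : Fin 4) :
    A k 0 * A l 3 + A k 1 * A l 2 + A k 2 * A l 1 + A k 3 * A l 0 = J4 k l := by
  have := congrFun (congrFun h.row k) l
  rw [← this]
  simp [Matrix.mul_apply, Fin.sum_univ_four, J4]
  ring

theorem J4_pairOf (p : Fin 4) : (J4 : Matrix (Fin 4) (Fin 4) R) (pairOf p).1 (pairOf p).2 = 0 := by
  fin_cases p <;> simp [J4, pairOf]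

theorem star4_apply (A : Matrix (Fin 4) (Fin 4) R) (p r : Fin 4) :
    star4 A p r = A (pairOf p).1 (pairOf r).1 * A (pairOf p).2 (pairOf r).2
      - A (pairOf p).2 (pairOf r).1 * A (pairOf p).1 (pairOf r).2 := rfl

theorem star4_mul (h2 : (2 : R) = 0) {A B : Matrix (Fin 4) (Fin 4) R} (hA : IsSp A) (hB : IsSp B) :
    star4 (A * B) = star4 A * star4 B := by
  ext p r
  rw [star4_apply, cauchy_binet, Matrix.mul_apply, Fin.sum_univ_four]
  simp only [star4_apply]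
  have hR := hA.row_entry (pairOf p).1 (pairOf p).2
  have hC := hB.col_entry (pairOf r).1 (pairOf r).2
  rw [J4_pairOf] at hR hC
  generalize (pairOf p).1 = k at *
  generalize (pairOf p).2 = l at *
  generalize (pairOf r).1 = i at *
  generalize (pairOf r).2 = j at *
  simp only [pairOf, Matrix.cons_val_zero, Matrix.cons_val_one, Matrix.cons_val]
  linear_combination (B 1 i * B 2 j - B 2 i * B 1 j) * hR
    - (2 * (A k 3 * A l 0 + A k 2 * A l 1) + (A k 0 * A l 3 - A l 0 * A k 3)) * hC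
    + ((A k 0 * A l 3 - A l 0 * A k 3) * (B 0 i * B 3 j - B 3 i * B 0 j)
      + 2 * (A k 3 * A l 0 + A k 2 * A l 1) * (B 3 i * B 0 j + B 2 i * B 1 j)
      + (A k 3 * A l 0 + A k 2 * A l 1) * (B 0 i * B 3 j - B 3 i * B 0 j)
      + (B 3 i * B 0 j + B 2 i * B 1 j) * (A k 0 * A l 3 - A l 0 * A k 3)) * h2

theorem pairOf_0 : pairOf 0 = (0, 1) := rfl
theorem pairOf_1 : pairOf 1 = (0, 2) := rfl
theorem pairOf_2 : pairOf 2 = (1, 3) := rfl
theorem pairOf_3 : pairOf 3 = (2, 3) := rfl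

theorem star4_one : star4 (1 : Matrix (Fin 4) (Fin 4) R) = 1 := by
  have key : ∀ A : Matrix (Fin 4) (Fin 4) R, (∀ i j, A i j = if i = j then 1 else 0) →
      star4 A = A := by
    intro A hA
    ext p r
    fin_cases p <;> fin_cases r <;>
      simp [star4_apply, pairOf_0, pairOf_1, pairOf_2, pairOf_3, hA]
  exact key 1 (fun i j => Matrix.one_apply)

theorem e2_eq_trace_star4 (h2 : (2 : R) = 0) {A : Matrix (Fin 4) (Fin 4) R} (hA : IsSp A) :
    e2 A = (star4 A).trace := by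
  have h03 := hA.col_entry 0 3
  have h12 := hA.row_entry 1 2
  simp only [J4, Matrix.of_apply, Matrix.cons_val_zero, Matrix.cons_val_one, Matrix.cons_val] at h03 h12
  simp only [Matrix.trace, Fin.sum_univ_four, Matrix.diag, star4_apply, e2, pairOf,
    Matrix.cons_val_zero, Matrix.cons_val_one, Matrix.cons_val]
  linear_combination h03 + h12 - (A 1 0 * A 2 3 + A 2 0 * A 1 3 + A 3 0 * A 0 3 + A 2 1 * A 1 2 - 1) * h2

end generalities

section field

variable {F : Type*} [Field F]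

theorem isSp_of_mem_Sp4 (g : GL (Fin 4) F) (hg : g ∈ Sp4 F) :
    IsSp (g : Matrix (Fin 4) (Fin 4) F) := by
  have key : ∀ A : Matrix (Fin 4) (Fin 4) F,
      (∀ i j, altForm4 (A.col i) (A.col j) = altForm4 (Pi.single i 1 : Fin 4 → F) (Pi.single j 1)) →
      IsSp A := by
    intro A hA
    ext i j
    have h1 : (Aᵀ * J4 * A : Matrix (Fin 4) (Fin 4) F) i j = altForm4 (A.col i) (A.col j) := by
      simp [Matrix.mul_apply, Fin.sum_univ_four, J4, altForm4]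
      ring
    have h2 : (J4 : Matrix (Fin 4) (Fin 4) F) i j =
        altForm4 (Pi.single i 1 : Fin 4 → F) (Pi.single j 1) := by
      fin_cases i <;> fin_cases j <;> simp [J4, altForm4]
    rw [h1, h2, hA]
  apply key
  intro i j
  have h := hg (Pi.single i 1) (Pi.single j 1)
  simpa only [Units.coeHom_apply, Matrix.mulVec_single_one] using h

theorem det_eq_one (h2 : (2 : F) = 0) {A : Matrix (Fin 4) (Fin 4) F} (hA : IsSp A) : A.det = 1 := by
  have h := congrArg Matrix.det hA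
  rw [Matrix.det_mul, Matrix.det_mul, Matrix.det_transpose, det_J4] at h
  have h3 : (A.det - 1) ^ 2 = 0 := by linear_combination h + (1 - A.det) * h2
  have := pow_eq_zero_iff (two_ne_zero) |>.mp h3
  linear_combination this

theorem e3_eq_trace (h2 : (2 : F) = 0) {A : Matrix (Fin 4) (Fin 4) F} (hA : IsSp A) :
    e3 A = A.trace := by
  rw [e3_eq_trace_adjugate]
  have h1 : adjugate A = J4 * Aᵀ * J4 := by
    calc adjugate A = (J4 * Aᵀ * J4 * A) * adjugate A := by rw [hA.left_inv, Matrix.one_mul]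
      _ = J4 * Aᵀ * J4 * (A * adjugate A) := by rw [Matrix.mul_assoc]
      _ = J4 * Aᵀ * J4 := by rw [Matrix.mul_adjugate, det_eq_one h2 hA, one_smul, Matrix.mul_one]
  rw [h1, Matrix.trace_mul_comm, ← Matrix.mul_assoc, J4_mul_J4, Matrix.one_mul, Matrix.trace_transpose]

theorem pow_four_eq_one (h2 : (2 : F) = 0) (θ : F →+* F) {A : Matrix (Fin 4) (Fin 4) F}
    (hA : IsSp A) (hstar : star4 A = A.map θ) (v : Fin 4 → F) (hv : v ≠ 0) (hAv : A *ᵥ v = v) :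
    A ^ 4 = 1 := by
  have hdet0 : (1 - A).det = 0 := by
    rw [← Matrix.exists_mulVec_eq_zero_iff]
    exact ⟨v, hv, by rw [Matrix.sub_mulVec, hAv, Matrix.one_mulVec, sub_self]⟩
  have he2 : e2 A = θ A.trace := by
    rw [e2_eq_trace_star4 h2 hA, hstar]
    simp [Matrix.trace, Fin.sum_univ_four]
  have hev := Matrix.eval_charpoly A 1
  rw [map_one, hdet0, charpoly4, he2, e3_eq_trace h2 hA, det_eq_one h2 hA] at hev
  simp only [eval_add, eval_sub, eval_mul, eval_pow, eval_X, eval_C, one_pow, mul_one] at hev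
  have hθ : θ A.trace = 0 := by linear_combination hev + (A.trace - 1) * h2
  have htr : A.trace = 0 := by
    rwa [map_eq_zero] at hθ
  have hCH := Matrix.aeval_self_charpoly A
  rw [charpoly4, he2, e3_eq_trace h2 hA, det_eq_one h2 hA, htr] at hCH
  simp only [map_zero, zero_mul, sub_zero, add_zero, map_one, map_add, map_pow, aeval_X] at hCH
  have h3 : (2 : Matrix (Fin 4) (Fin 4) F) = 0 := by
    have : ((2 : F) • (1 : Matrix (Fin 4) (Fin 4) F)) = 0 := by rw [h2, zero_smul]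
    rw [← this, two_smul]; norm_num
  calc A ^ 4 = (A ^ 4 + 1) + 1 - 2 := by abel_nf; simp
    _ = 1 := by rw [hCH, h3]; simp

theorem mem_Sz_aux (h2 : (2 : F) = 0) (e : ℕ) (θ : F →+* F) (hθ : ∀ x, θ x = x ^ e)
    (g : GL (Fin 4) F) (hg : g ∈ Sz F e) :
    g ∈ Sp4 F ∧ star4 (g : Matrix (Fin 4) (Fin 4) F) = (g : Matrix (Fin 4) (Fin 4) F).map θ := by
  have hfun : (fun x : F => x ^ e) = θ := by funext x; exact (hθ x).symm
  unfold Sz at hg
  induction hg using Subgroup.closure_induction with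
  | mem x hx =>
    refine ⟨hx.1, ?_⟩
    rw [hx.2, hfun]
  | one =>
    refine ⟨Subgroup.one_mem _, ?_⟩
    rw [Units.val_one, star4_one, Matrix.map_one _ (map_zero θ) (map_one θ)]
  | mul x y _ _ hx hy =>
    refine ⟨Subgroup.mul_mem _ hx.1 hy.1, ?_⟩
    rw [Units.val_mul, star4_mul h2 (isSp_of_mem_Sp4 x hx.1) (isSp_of_mem_Sp4 y hy.1), hx.2, hy.2,
      Matrix.map_mul]
  | inv x _ hx =>
    have hxi : x⁻¹ ∈ Sp4 F := Subgroup.inv_mem _ hx.1
    refine ⟨hxi, ?_⟩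
    have h3 : star4 (x⁻¹ : GL (Fin 4) F).1 * star4 x.1 = 1 := by
      rw [← star4_mul h2 (isSp_of_mem_Sp4 _ hxi) (isSp_of_mem_Sp4 x hx.1), ← Units.val_mul,
        inv_mul_cancel, Units.val_one, star4_one]
    have h4 : x.1.map θ * (x⁻¹ : GL (Fin 4) F).1.map θ = 1 := by
      rw [← Matrix.map_mul, ← Units.val_mul, mul_inv_cancel, Units.val_one,
        Matrix.map_one _ (map_zero θ) (map_one θ)]
    rw [hx.2] at h3
    calc star4 (x⁻¹ : GL (Fin 4) F).1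
        = star4 (x⁻¹ : GL (Fin 4) F).1 * (x.1.map θ * (x⁻¹ : GL (Fin 4) F).1.map θ) := by
          rw [h4, Matrix.mul_one]
      _ = (x⁻¹ : GL (Fin 4) F).1.map θ := by rw [← Matrix.mul_assoc, h3, Matrix.one_mul]

/-- the Weyl element -/
def jG : GL (Fin 4) F := ⟨J4, J4, J4_mul_J4, J4_mul_J4⟩

theorem jG_mem (h2 : (2 : F) = 0) (e : ℕ) (he : e ≠ 0) : (jG : GL (Fin 4) F) ∈ Sz F e := by
  apply Subgroup.subset_closure
  constructor
  · intro u v
    simp [jG, J4, altForm4, Matrix.mulVec, dotProduct, Fin.sum_univ_four]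
    ring
  · have hneg : (-1 : F) = 1 := by linear_combination -h2
    ext p r
    fin_cases p <;> fin_cases r <;>
      simp [jG, J4, star4_apply, pairOf_0, pairOf_1, pairOf_2, pairOf_3, he, hneg]

theorem orderOf_jG : orderOf (jG : GL (Fin 4) F) = 2 := by
  apply orderOf_eq_prime
  · apply Units.ext
    rw [pow_two, Units.val_mul, Units.val_one]
    exact J4_mul_J4
  · intro h
    have := congrArg (fun A : GL (Fin 4) F => (A : Matrix (Fin 4) (Fin 4) F) 0 0) h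
    simp [jG, J4] at this

end field

end Cfsg.Agent.Lib.Helper64Suzuki
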