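import Mathlib
import Cfsg.Prelude.Def_Classical
import Cfsg.Agent.Lib.Helper64CayTab
import Cfsg.Agent.Lib.Helper64ActPerm
import Cfsg.Agent.Lib.Helper7OMinus
import Cfsg.Agent.Lib.Helper18Transfer

/-!
# A Sylow 2-subgroup of `O₆⁻(2)` is a Sylow 2-subgroup of `S₈` (helper64)
-/

set_option autoImplicit false

namespace Cfsg.Agent.Helper64Syl8

open Matrix

/-- decode a table of permutations of 8 points. -/
def pf (code j : ℕ) (i : Fin 8) : Fin 8 :=
  ⟨(code >>> (24 * j + 3 * i.val)) % 8, Nat.mod_lt _ (by norm_num)⟩

/-- decode a table of indices below 128. -/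
def tb7 (code j : ℕ) : Fin 128 := ⟨(code >>> (7 * j)) % 128, Nat.mod_lt _ (by norm_num)⟩

def PV2 : ℕ := 5045531130324671974442729059374333662991091969189966554333592931118616062343948879735181188103271065419816966998960789846350710189501211982562359029725782903379708506001803405092140185669679136199361270370582637732004665369262646345637719412366217568470548597668516264059049120004029133511936712730409054476577711813502236626496763449051865733237520172881764599301165425797015475365482982831543871079291624447761666869879520498390129733726072732364340061784464838378859848274492722352418368782470867623439950181396381736908672520029829676755164098220740358741769777395737610493031213890335554749420627579845682215811655948984580284565346612866916322470760073686934390996235922490624034604526729160654545745032930628167337085552431907189607761871622606688712566413271614055812782322299038893466171109679232284637249126819776072577117523763619520824525195486225286757188413845046927333133617999956457117962187012291350035613320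
def TH2 : ℕ := 1928814278253489677960
def L2c : ℕ := 141602957496602144512336391314563494877001970465219353589176982052077429199756239592295550611976188695220955906107825138094014690815104849630087811328172303180338062338784141009461123327375997239961597290023371613443384917641596651832409339200898903840483201568297738582276590222236722070576770927510736650481143131858072043508568503064188359520373625355856523353017829775722163590852096199511954441727362687005320023822039499734561888909099053080717657433332577392307074760955531704588898123779077657817876990610510692702422964197457744618266545982499486615320660025818514977034238644586029691677667008258874441491614043999005329224890216299133370805993654077646328271740577258774085804890561148632015681844675938958286820949010505341958477118950944267939496048574934353864763272073633435625539754005081718785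
def PAR2 : ℕ := 507364520539674376181389546834372819260871919441843831561012429288306635583653686443095293521255798288820379839510047538654929669246491573249071134515222899514358445734853628229324287784802252741893445970961751894061698185193101026386874212916924616097719763357097000960
def GEN2 : ℕ := 77166345715536662551866707744394443519896402923557200462999121392093582625168
def INV2 : ℕ := 528261776809222428467852377286306521177811934099301453449775175763151756061678664311264989182765672555835032411236799366206853402239382428228637257689924203339969448947486828929152909688038665196571847877129742775225464944965810787573229187250465911920721679853620854912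
def GC2 : ℕ := 86607311099073400479046015402113
def VC2 : ℕ := 245577188655297
def BC2 : ℕ := 9488842945
def BIC2 : ℕ := 14369702081

def inv2 (j : Fin 128) : Fin 128 := tb7 INV2 j.val
def L2 (a : Fin 3) (j : Fin 128) : Fin 128 := tb7 L2c (128 * a.val + j.val)
def par2 (j : Fin 128) : Fin 128 := tb7 PAR2 j.val
def gen2 (j : Fin 128) : Fin 3 := ⟨((GEN2 >>> (2 * j.val)) % 4) % 3, Nat.mod_lt _ (by norm_num)⟩

set_option maxRecDepth 100000 in
theorem pv2_left : ∀ j : Fin 128, ∀ i, pf PV2 (inv2 j).val (pf PV2 j.val i) = i := by
  decide +kernel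

set_option maxRecDepth 100000 in
theorem pv2_right : ∀ j : Fin 128, ∀ i, pf PV2 j.val (pf PV2 (inv2 j).val i) = i := by
  decide +kernel

/-- the 128 permutations. -/
def pv2 (j : Fin 128) : Equiv.Perm (Fin 8) :=
  ⟨pf PV2 j.val, pf PV2 (inv2 j).val, pv2_left j, pv2_right j⟩

theorem th2_inv : ∀ a : Fin 3, ∀ i, pf TH2 a.val (pf TH2 a.val i) = i := by decide +kernel

/-- the generators. -/
def th2 (a : Fin 3) : Equiv.Perm (Fin 8) :=
  ⟨pf TH2 a.val, pf TH2 a.val, th2_inv a, th2_inv a⟩

set_option maxRecDepth 100000 in
theorem hL2_aux : ∀ a : Fin 3, ∀ j : Fin 128, ∀ i,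
    pf TH2 a.val (pf PV2 j.val i) = pf PV2 (L2 a j).val i := by decide +kernel

theorem hL2 (a : Fin 3) (j : Fin 128) : th2 a * pv2 j = pv2 (L2 a j) :=
  Equiv.ext (hL2_aux a j)

set_option maxRecDepth 100000 in
theorem pv2_inj_aux : ∀ i j : Fin 128, (∀ x, pf PV2 i.val x = pf PV2 j.val x) → i = j := by
  decide +kernel

theorem pv2_inj : Function.Injective pv2 := fun i j h =>
  pv2_inj_aux i j (fun x => congrArg (fun σ : Equiv.Perm (Fin 8) => σ x) h)

theorem pv2_zero : pv2 0 = 1 := Equiv.ext (by decide +kernel)

theorem th2_sq (a : Fin 3) : th2 a * th2 a = 1 := Equiv.ext (th2_inv a)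

set_option maxRecDepth 100000 in
theorem hpar2 : ∀ j : Fin 128, j ≠ 0 → (par2 j).val < j.val ∧ L2 (gen2 j) (par2 j) = j := by
  decide +kernel

theorem card_A2 : Nat.card (Subgroup.closure (Set.range th2)) = 128 :=
  Cfsg.Agent.Helper64CayTab.card_closure pv2 pv2_inj th2 L2 hL2 th2_sq 0 pv2_zero par2 gen2 hpar2

abbrev I6 := (Fin 2 ⊕ Fin 2) ⊕ Fin 2

/-- linear order of the coordinates. -/
def ix : I6 → ℕ
  | .inl (.inl i) => i.val
  | .inl (.inr i) => 2 + i.val
  | .inr i => 4 + i.val

abbrev QQ : (I6 → ZMod 2) → ZMod 2 := Cfsg.quadFormMinus 2 (ZMod 2) 1 1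

/-- decode a matrix. -/
def dm (code : ℕ) : Matrix I6 I6 (ZMod 2) :=
  Matrix.of fun r c => (((code >>> (6 * ix c + ix r)) % 2 : ℕ) : ZMod 2)

/-- decode a vector. -/
def dv (code : ℕ) : I6 → ZMod 2 := fun r => (((code >>> (ix r)) % 2 : ℕ) : ZMod 2)

def gm (a : Fin 3) : Matrix I6 I6 (ZMod 2) := dm (GC2 >>> (36 * a.val))
def vv (j : Fin 8) : I6 → ZMod 2 := dv (VC2 >>> (6 * j.val))
def ee : I6 → ZMod 2 := dv 8

set_option maxRecDepth 100000 in
theorem gm_sq : ∀ a, gm a * gm a = 1 := by decide +kernel

set_option maxRecDepth 100000 in
theorem gm_Q : ∀ a, ∀ u : I6 → ZMod 2, QQ (gm a *ᵥ u) = QQ u := by decide +kernel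

/-- the generators in the orthogonal group. -/
def gg (a : Fin 3) : Cfsg.isometryGroup (ZMod 2) QQ :=
  ⟨⟨gm a, gm a, gm_sq a, gm_sq a⟩, fun u _ => gm_Q a u⟩

set_option maxRecDepth 100000 in
theorem gm_act : ∀ a j, gm a *ᵥ vv j = vv (th2 a j) := by decide +kernel

set_option maxRecDepth 100000 in
theorem vv_inj_aux : ∀ i j, vv i = vv j → i = j := by decide +kernel

set_option maxRecDepth 100000 in
theorem ycheck : ∀ y : I6 → ZMod 2, QQ y = QQ ee → (∀ j, QQ (y + vv j) = QQ (ee + vv j)) →
    y = ee := by decide +kernel

set_option maxRecDepth 100000 in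
theorem BB_col : ∀ c : I6, (∃ j, (fun r => dm BC2 r c) = vv j) ∨ (fun r => dm BC2 r c) = ee := by
  decide +kernel

theorem BB_BI : dm BC2 * dm BIC2 = 1 := by decide +kernel

theorem faithful (x : Cfsg.isometryGroup (ZMod 2) QQ)
    (h : ∀ j, (x.1.1 : Matrix I6 I6 (ZMod 2)) *ᵥ vv j = vv j) : x = 1 := by
  have he : (x.1.1 : Matrix I6 I6 (ZMod 2)) *ᵥ ee = ee := by
    apply ycheck
    · exact x.2 ee ee
    · intro j
      have := x.2 (ee + vv j) ee
      rw [← h j, ← Matrix.mulVec_add, h j]
      exact this
  have h1 : (x.1.1 : Matrix I6 I6 (ZMod 2)) * dm BC2 = dm BC2 := by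
    ext r c
    have h2 : ((x.1.1 : Matrix I6 I6 (ZMod 2)) * dm BC2) r c
        = ((x.1.1 : Matrix I6 I6 (ZMod 2)) *ᵥ (fun k => dm BC2 k c)) r := rfl
    rw [h2]
    rcases BB_col c with ⟨j, hj⟩ | hj
    · rw [hj, h j, ← hj]
    · rw [hj, he, ← hj]
  have h3 : (x.1.1 : Matrix I6 I6 (ZMod 2)) = 1 := by
    calc (x.1.1 : Matrix I6 I6 (ZMod 2)) = x.1.1 * (dm BC2 * dm BIC2) := by rw [BB_BI, mul_one]
      _ = dm BC2 * dm BIC2 := by rw [← mul_assoc, h1]
      _ = 1 := BB_BI
  exact Subtype.ext (Units.ext h3)

theorem equiv2 : Nonempty (Subgroup.closure (Set.range gg) ≃* Subgroup.closure (Set.range th2)) :=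
  Cfsg.Agent.Helper64ActPerm.closure_equiv
    (fun (x : Cfsg.isometryGroup (ZMod 2) QQ) w => (x.1.1 : Matrix I6 I6 (ZMod 2)) *ᵥ w)
    (fun w => by simp) (fun a b w => by simp [Matrix.mulVec_mulVec]) vv
    (fun i j h => vv_inj_aux i j h) gg th2 (fun a j => gm_act a j) faithful

end Cfsg.Agent.Helper64Syl8
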