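import Mathlib
import Cfsg.Prelude.Def_Classical
import Cfsg.Agent.Lib.Helper64Syl8b
import Cfsg.Agent.Lib.Helper7SpCenter

/-!
# A Sylow 2-subgroup of `PSp₄(3)` is a Sylow 2-subgroup of `A₈` (helper64)
-/

set_option autoImplicit false

namespace Cfsg.Agent.Helper64Syl8

open Matrix

/-- decode a table of indices below 64. -/
def tb6 (code j : ℕ) : Fin 64 := ⟨(code >>> (6 * j)) % 64, Nat.mod_lt _ (by norm_num)⟩

def PV1 : ℕ := 1425838956126268393395082399867851372861269948588378047030615604047421261820801233963588536151158317889351006963582302934045039267199319788229410137379308645740646589181214496419510349667402474702445397308769871308466805177082525232464995100803284481837207101845166810649937246432597747222500775841558731984152775057970480010072857964862459584030256901607288752712925608228907894597555667023328389270547332355337927955449165164118693117490093518494692163045738120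
def L1c : ℕ := 43740249546153083494661184580280109350146538481708939964148006887904944064835860331042804478504586686660806801508617346014798695451110413906520150885723622291741652495448961728956063012585175059523252745347871367309438149008977865119285095012048088351155691232774676689019524853218738246636589408688998028339424500841780928256354212279171757924353
def PAR1 : ℕ := 28144135023989760317343752582779715911938244868625654432417455088406558763995824092119383855703426056501213033136128
def GEN1 : ℕ := 200180753421787273968807403289124833680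
def INV1 : ℕ := 39392078757190998016562161877621652179404714321869008904268993318323915597107988532192962025536833471938529952800832
def MC1 : ℕ := 9105692965110273715526512576494871707795025959901889772390038252547609629734378376145931190558311333134197952176441002387925259353170728344303714749493607845553365521223437949272741141450816611992237612493658404266896999363216208430526792279197787715531815273389561246255085234192928095536465279379653908926813109486138737565546254838085865569852251995874003728174444638878596907630836444572907800066658309640400255684887720552759220798540428883044254257211610200406202837612106937913039881347308436774099873791556655228769961194102284511620432260207792457270427602690114388727053919787241156094334670382370625946625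

def inv1 (j : Fin 64) : Fin 64 := tb6 INV1 j.val
def L1 (a : Fin 3) (j : Fin 64) : Fin 64 := tb6 L1c (64 * a.val + j.val)
def par1 (j : Fin 64) : Fin 64 := tb6 PAR1 j.val
def gen1 (j : Fin 64) : Fin 3 := ⟨((GEN1 >>> (2 * j.val)) % 4) % 3, Nat.mod_lt _ (by norm_num)⟩
def sg (a : Fin 3) : Fin 64 := ⟨a.val + 1, by omega⟩

set_option maxRecDepth 100000 in
theorem pv1_left : ∀ j : Fin 64, ∀ i, pf PV1 (inv1 j).val (pf PV1 j.val i) = i := by
  decide +kernel

set_option maxRecDepth 100000 in
theorem pv1_right : ∀ j : Fin 64, ∀ i, pf PV1 j.val (pf PV1 (inv1 j).val i) = i := by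
  decide +kernel

/-- the 64 permutations. -/
def pv1 (j : Fin 64) : Equiv.Perm (Fin 8) :=
  ⟨pf PV1 j.val, pf PV1 (inv1 j).val, pv1_left j, pv1_right j⟩

/-- the generators. -/
def t1 (a : Fin 3) : Equiv.Perm (Fin 8) := pv1 (sg a)

set_option maxRecDepth 100000 in
theorem hL1_aux : ∀ a : Fin 3, ∀ j : Fin 64, ∀ i,
    pf PV1 (sg a).val (pf PV1 j.val i) = pf PV1 (L1 a j).val i := by decide +kernel

theorem hL1 (a : Fin 3) (j : Fin 64) : t1 a * pv1 j = pv1 (L1 a j) :=
  Equiv.ext (hL1_aux a j)

set_option maxRecDepth 100000 in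
theorem pv1_inj_aux : ∀ i j : Fin 64, (∀ x, pf PV1 i.val x = pf PV1 j.val x) → i = j := by
  decide +kernel

theorem pv1_inj : Function.Injective pv1 := fun i j h =>
  pv1_inj_aux i j (fun x => congrArg (fun σ : Equiv.Perm (Fin 8) => σ x) h)

theorem pv1_zero : pv1 0 = 1 := Equiv.ext (by decide +kernel)

theorem t1_sq_aux : ∀ a : Fin 3, ∀ i, pf PV1 (sg a).val (pf PV1 (sg a).val i) = i := by
  decide +kernel

theorem t1_sq (a : Fin 3) : t1 a * t1 a = 1 := Equiv.ext (t1_sq_aux a)

set_option maxRecDepth 100000 in
theorem hpar1 : ∀ j : Fin 64, j ≠ 0 → (par1 j).val < j.val ∧ L1 (gen1 j) (par1 j) = j := by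
  decide +kernel

theorem card_A1 : Nat.card (Subgroup.closure (Set.range t1)) = 64 :=
  Cfsg.Agent.Helper64CayTab.card_closure pv1 pv1_inj t1 L1 hL1 t1_sq 0 pv1_zero par1 gen1 hpar1

theorem t1_sign : ∀ a, Equiv.Perm.sign (t1 a) = 1 := by decide +kernel

set_option maxRecDepth 100000 in
theorem L1_inv : ∀ a j, L1 a (L1 a j) = j := by decide +kernel

/-- the regular representation of the generators. -/
def th1 (a : Fin 3) : Equiv.Perm (Fin 64) := ⟨L1 a, L1 a, L1_inv a, L1_inv a⟩

theorem equivA : Nonempty (Subgroup.closure (Set.range t1) ≃* Subgroup.closure (Set.range th1)) :=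
  Cfsg.Agent.Helper64ActPerm.closure_equiv (fun (x y : Equiv.Perm (Fin 8)) => x * y)
    (fun x => one_mul x) (fun a b x => mul_assoc a b x) pv1 pv1_inj t1 th1 (fun a j => hL1 a j)
    (fun x h => by simpa using h 0)

abbrev I4 := Fin 2 ⊕ Fin 2

/-- linear order of the coordinates. -/
def ix4 : I4 → ℕ
  | .inl i => i.val
  | .inr i => 2 + i.val

/-- the 64 matrices. -/
def m1 (j : Fin 64) : Matrix I4 I4 (ZMod 3) :=
  Matrix.of fun r c => (((MC1 >>> (32 * j.val + 2 * (4 * ix4 r + ix4 c))) % 4 : ℕ) : ZMod 3)

set_option maxRecDepth 100000 in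
theorem m1_mem : ∀ j, m1 j * Matrix.J (Fin 2) (ZMod 3) * (m1 j)ᵀ = Matrix.J (Fin 2) (ZMod 3) := by
  decide +kernel

/-- the 64 symplectic matrices. -/
def sp1 (j : Fin 64) : Matrix.symplecticGroup (Fin 2) (ZMod 3) :=
  ⟨m1 j, SymplecticGroup.mem_iff.2 (m1_mem j)⟩

/-- their images. -/
def w1 (j : Fin 64) : Cfsg.PSp 2 (ZMod 3) := QuotientGroup.mk (sp1 j)

/-- minus the identity. -/
def negOne : Matrix.symplecticGroup (Fin 2) (ZMod 3) :=
  ⟨-1, SymplecticGroup.mem_iff.2 (by decide +kernel)⟩

theorem negOne_mem : negOne ∈ Subgroup.center (Matrix.symplecticGroup (Fin 2) (ZMod 3)) := by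
  rw [Subgroup.mem_center_iff]
  intro g
  apply Subtype.ext
  show g.1 * (-1) = (-1) * g.1
  simp

set_option maxRecDepth 100000 in
theorem hmul1 : ∀ a j, m1 (sg a) * m1 j = m1 (L1 a j) ∨ m1 (sg a) * m1 j = m1 (L1 a j) * (-1) := by
  decide +kernel

theorem w1_act (a : Fin 3) (j : Fin 64) : w1 (sg a) * w1 j = w1 (th1 a j) := by
  show w1 (sg a) * w1 j = w1 (L1 a j)
  rcases hmul1 a j with h | h
  · have h2 : sp1 (sg a) * sp1 j = sp1 (L1 a j) := Subtype.ext h
    show (QuotientGroup.mk (sp1 (sg a) * sp1 j) : Cfsg.PSp 2 (ZMod 3)) = _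
    rw [h2]; rfl
  · have h2 : sp1 (sg a) * sp1 j = sp1 (L1 a j) * negOne := Subtype.ext h
    show (QuotientGroup.mk (sp1 (sg a) * sp1 j) : Cfsg.PSp 2 (ZMod 3)) = _
    rw [h2, QuotientGroup.mk_mul, (QuotientGroup.eq_one_iff negOne).2 negOne_mem, mul_one]; rfl

set_option maxRecDepth 100000 in
theorem m1_inj : ∀ i j : Fin 64, ∀ l : ZMod 3, m1 j = m1 i * Matrix.scalar I4 l → i = j := by
  decide +kernel

theorem w1_inj : Function.Injective w1 := by
  intro i j h
  have h1 : (sp1 i)⁻¹ * sp1 j ∈ Subgroup.center (Matrix.symplecticGroup (Fin 2) (ZMod 3)) :=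
    QuotientGroup.eq.1 h
  have h2 := Cfsg.Agent.Lib.Helper7SpCenter.eq_scalar_of_fix _
    (Cfsg.Agent.Lib.Helper7SpCenter.fix_of_mem_center _ h1) (Sum.inl 0)
  apply m1_inj i j _
  have h3 : sp1 j = sp1 i * ((sp1 i)⁻¹ * sp1 j) := by group
  have h4 := congrArg (fun z : Matrix.symplecticGroup (Fin 2) (ZMod 3) => z.1) h3
  rw [show m1 j = (sp1 j).1 from rfl, h4]
  show (sp1 i).1 * ((sp1 i)⁻¹ * sp1 j).1 = _
  rw [h2]
  rfl

theorem equivB : Nonempty (Subgroup.closure (Set.range (fun a => w1 (sg a))) ≃*
    Subgroup.closure (Set.range th1)) :=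
  Cfsg.Agent.Helper64ActPerm.closure_equiv (fun (x y : Cfsg.PSp 2 (ZMod 3)) => x * y)
    (fun x => one_mul x) (fun a b x => mul_assoc a b x) w1 w1_inj (fun a => w1 (sg a)) th1
    (fun a j => w1_act a j) (fun x h => by simpa using h 0)

end Cfsg.Agent.Helper64Syl8
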