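import Mathlib
import Cfsg.Agent.Lib.Helper64Syl8a
import Cfsg.Agent.Lib.Helper7SpFrame
import Cfsg.Agent.Lib.Helper6Transport

/-!
# Sylow 2-subgroups of `A₈`, `PSp₄(3)`, `S₈`, `O₆⁻(2)` (helper64)
-/

set_option autoImplicit false

namespace Cfsg.Agent.Helper64Syl8

open Matrix

theorem fact2 (N k : ℕ) (hN : N ≠ 0) (h1 : 2 ^ k ∣ N) (h2 : ¬ 2 ^ (k + 1) ∣ N) :
    N.factorization 2 = k := by
  apply le_antisymm
  · by_contra hcon
    rw [not_le] at hcon
    exact h2 ((Nat.Prime.pow_dvd_iff_le_factorization Nat.prime_two hN).2 hcon)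
  · exact (Nat.Prime.pow_dvd_iff_le_factorization Nat.prime_two hN).1 h1

theorem card_S8 : Nat.card (Equiv.Perm (Fin 8)) = 40320 := by
  rw [Nat.card_eq_fintype_card, Fintype.card_perm, Fintype.card_fin]
  decide

theorem card_A8 : Nat.card (alternatingGroup (Fin 8)) = 20160 := by
  have h := two_mul_nat_card_alternatingGroup (α := Fin 8)
  rw [card_S8] at h
  omega

instance : Fact (Nat.Prime 2) := ⟨Nat.prime_two⟩
instance : Fact (Nat.Prime 3) := ⟨Nat.prime_three⟩

theorem card_O : Nat.card (Cfsg.isometryGroup (ZMod 2) QQ) = 51840 := by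
  have hab : Cfsg.Agent.Lib.Helper7Norm2.Aniso (1 : ZMod 2) 1 := by
    unfold Cfsg.Agent.Lib.Helper7Norm2.Aniso
    decide
  have h := Cfsg.Agent.Lib.Helper7OMinus.card_isometryGroup_minus (F := ZMod 2) 2 1 1 hab
  rw [ZMod.card] at h
  rw [h]
  decide

theorem ab_one : ∀ a b : ZMod 2,
    (∀ z₁ z₂ : ZMod 2, z₁ ^ 2 + a * z₁ * z₂ + b * z₂ ^ 2 = 0 → z₁ = 0 ∧ z₂ = 0) →
    a = 1 ∧ b = 1 := by decide

theorem part2 (K : Type) [Field K] [Fintype K] (hK : Fintype.card K = 2) (a b : K)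
    (hab : ∀ z₁ z₂ : K, z₁ ^ 2 + a * z₁ * z₂ + b * z₂ ^ 2 = 0 → z₁ = 0 ∧ z₂ = 0)
    (P' : Sylow 2 (Equiv.Perm (Fin 8)))
    (Q' : Sylow 2 ↥(Cfsg.isometryGroup K (Cfsg.quadFormMinus 2 K a b))) :
    Nonempty (↥(P' : Subgroup (Equiv.Perm (Fin 8))) ≃*
      ↥(Q' : Subgroup ↥(Cfsg.isometryGroup K (Cfsg.quadFormMinus 2 K a b)))) := by
  obtain ⟨e1⟩ := Cfsg.Agent.Helper64CayTab.sylow_equiv (MulEquiv.refl (Equiv.Perm (Fin 8))) 2 7
    (by rw [card_S8]; exact fact2 _ _ (by norm_num) (by norm_num) (by norm_num)) P'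
    (Subgroup.closure (Set.range th2)) (by rw [card_A2]; norm_num)
  have hfin : Finite (Cfsg.isometryGroup (ZMod 2) QQ) :=
    Nat.finite_of_card_ne_zero (by rw [card_O]; norm_num)
  let e0 : K ≃+* ZMod 2 := FiniteField.ringEquivOfCardEq (hK.trans (ZMod.card 2).symm)
  obtain ⟨ha, hb⟩ := ab_one (e0 a) (e0 b) (by
    intro z₁ z₂ h
    have h2 := hab (e0.symm z₁) (e0.symm z₂) (by
      apply e0.injective
      simpa using h)
    constructor
    · have := congrArg e0 h2.1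
      simpa using this
    · have := congrArg e0 h2.2
      simpa using this)
  let eO : ↥(Cfsg.isometryGroup K (Cfsg.quadFormMinus 2 K a b)) ≃*
      ↥(Cfsg.isometryGroup (ZMod 2) QQ) :=
    Cfsg.Agent.Lib.Helper18Transfer.isoEquiv e0 _ _ (by
      intro v
      simp only [Cfsg.quadFormMinus, map_add, map_sum, map_mul, map_pow, ha, hb])
  obtain ⟨e3⟩ := equiv2
  obtain ⟨e2⟩ := Cfsg.Agent.Helper64CayTab.sylow_equiv eO 2 7
    (by rw [card_O]; exact fact2 _ _ (by norm_num) (by norm_num) (by norm_num)) Q'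
    (Subgroup.closure (Set.range gg)) (by rw [Nat.card_congr e3.toEquiv, card_A2]; norm_num)
  exact ⟨e1.trans (e3.symm.trans e2.symm)⟩

theorem card_PSp : Nat.card (Cfsg.PSp 2 (ZMod 3)) = 25920 := by
  have h1 : Nat.card (Matrix.symplecticGroup (Fin 2) (ZMod 3)) = 51840 := by
    rw [Cfsg.Agent.Lib.Helper7SpFrame.card_symplecticGroup, ZMod.card]
    decide
  have h2 : Nat.card (Subgroup.center (Matrix.symplecticGroup (Fin 2) (ZMod 3))) = 2 := by
    rw [Cfsg.Agent.Lib.Helper7SpCenter.card_center_Sp (by norm_num), ZMod.card]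
    decide
  have h3 := Subgroup.card_eq_card_quotient_mul_card_subgroup
    (Subgroup.center (Matrix.symplecticGroup (Fin 2) (ZMod 3)))
  rw [h1, h2] at h3
  show Nat.card (Matrix.symplecticGroup (Fin 2) (ZMod 3) ⧸
    Subgroup.center (Matrix.symplecticGroup (Fin 2) (ZMod 3))) = 25920
  omega

/-- a ring isomorphism induces an isomorphism of symplectic groups. -/
def spEquiv' {l R S : Type*} [DecidableEq l] [Fintype l] [CommRing R] [CommRing S] (e : R ≃+* S) :
    Matrix.symplecticGroup l R ≃* Matrix.symplecticGroup l S where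
  toFun A := ⟨A.1.map e, SymplecticGroup.map_mem A.2 e⟩
  invFun A := ⟨A.1.map e.symm, SymplecticGroup.map_mem A.2 e.symm⟩
  left_inv A := by
    apply Subtype.ext
    ext i j
    simp
  right_inv A := by
    apply Subtype.ext
    ext i j
    simp
  map_mul' A B := by
    apply Subtype.ext
    simp [Matrix.map_mul]

theorem part1 (F : Type) [Field F] [Fintype F] (hF : Fintype.card F = 3)
    (P : Sylow 2 ↥(alternatingGroup (Fin 8))) (Q : Sylow 2 (Cfsg.PSp 2 F)) :
    Nonempty (↥(P : Subgroup ↥(alternatingGroup (Fin 8))) ≃* ↥(Q : Subgroup (Cfsg.PSp 2 F))) := by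
  have hle : Subgroup.closure (Set.range t1) ≤ alternatingGroup (Fin 8) := by
    rw [Subgroup.closure_le]
    rintro _ ⟨a, rfl⟩
    exact Equiv.Perm.mem_alternatingGroup.2 (t1_sign a)
  let eA := Subgroup.subgroupOfEquivOfLe hle
  obtain ⟨e1⟩ := Cfsg.Agent.Helper64CayTab.sylow_equiv
    (MulEquiv.refl ↥(alternatingGroup (Fin 8))) 2 6
    (by rw [card_A8]; exact fact2 _ _ (by norm_num) (by norm_num) (by norm_num)) P
    ((Subgroup.closure (Set.range t1)).subgroupOf (alternatingGroup (Fin 8)))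
    (by rw [Nat.card_congr eA.toEquiv, card_A1]; norm_num)
  have hfin : Finite (Cfsg.PSp 2 (ZMod 3)) :=
    Nat.finite_of_card_ne_zero (by rw [card_PSp]; norm_num)
  let e0 : F ≃+* ZMod 3 := FiniteField.ringEquivOfCardEq (hF.trans (ZMod.card 3).symm)
  let eP : Cfsg.PSp 2 F ≃* Cfsg.PSp 2 (ZMod 3) :=
    QuotientGroup.congr _ _ (spEquiv' e0)
      (Cfsg.Agent.Lib.Helper6Transport.map_center_of_mulEquiv (spEquiv' e0))
  obtain ⟨e3⟩ := equivA
  obtain ⟨e4⟩ := equivB
  obtain ⟨e2⟩ := Cfsg.Agent.Helper64CayTab.sylow_equiv eP 2 6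
    (by rw [card_PSp]; exact fact2 _ _ (by norm_num) (by norm_num) (by norm_num)) Q
    (Subgroup.closure (Set.range (fun a => w1 (sg a))))
    (by rw [Nat.card_congr (e4.trans e3.symm).toEquiv, card_A1]; norm_num)
  exact ⟨e1.trans (eA.trans (e3.trans (e4.symm.trans e2.symm)))⟩

end Cfsg.Agent.Helper64Syl8
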