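import Mathlib

set_option autoImplicit false

namespace Cfsg.Agent.Lib.Helper64Trace

open Matrix

section pow

variable {R : Type*} [CommRing R]

/-- Chebyshev-like recursion: `A ^ n = U n • A - U (n-1) • 1` for `A` in `SL₂` of trace `t`. -/
def U (t : R) : ℕ → R
  | 0 => 0
  | 1 => 1
  | (n + 2) => t * U t (n + 1) - U t n

theorem sq_eq (A : Matrix (Fin 2) (Fin 2) R) (hA : A.det = 1) :
    A * A = A.trace • A - 1 := by
  rw [Matrix.det_fin_two] at hA
  ext i j
  fin_cases i <;> fin_cases j <;>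
    simp [Matrix.mul_apply, Fin.sum_univ_two, Matrix.trace] <;> first | ring1 | linear_combination -hA

theorem pow_succ_eq (A : Matrix (Fin 2) (Fin 2) R) (hA : A.det = 1) (n : ℕ) :
    A ^ (n + 1) = U A.trace (n + 1) • A - U A.trace n • (1 : Matrix (Fin 2) (Fin 2) R) := by
  induction n with
  | zero => simp [U]
  | succ n ih =>
    rw [pow_succ, ih, sub_mul, smul_mul_assoc, smul_mul_assoc, sq_eq A hA, one_mul]
    simp only [U]
    module

theorem pow_eq_smul_one (A : Matrix (Fin 2) (Fin 2) R) (hA : A.det = 1) (n : ℕ)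
    (hU : U A.trace (n + 1) = 0) :
    A ^ (n + 1) = (- U A.trace n) • (1 : Matrix (Fin 2) (Fin 2) R) := by
  rw [pow_succ_eq A hA, hU]; simp

end pow

section graph

/-- the prime graph of a group all of whose elements have order a power of 2, 3 or 7 -/
theorem pg_of_eppo {G : Type*} [Group G] [Finite G]
    (h : ∀ g : G, ∃ p k : ℕ, (p = 2 ∨ p = 3 ∨ p = 7) ∧ g ^ (p ^ k) = 1)
    (h2 : ∃ g : G, orderOf g = 2) (h3 : ∃ g : G, orderOf g = 3) (h7 : ∃ g : G, orderOf g = 7) :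
    (∀ r : ℕ, r.Prime → (r ∣ Nat.card G ↔ (r = 2 ∨ r = 3 ∨ r = 7))) ∧
    (∀ r s : ℕ, r.Prime → s.Prime → r ≠ s → ¬ ∃ g : G, orderOf g = r * s) := by
  have hprime : ∀ p : ℕ, (p = 2 ∨ p = 3 ∨ p = 7) → p.Prime := by
    rintro p (rfl | rfl | rfl) <;> norm_num
  constructor
  · intro r hr
    constructor
    · intro hdvd
      have : Fact r.Prime := ⟨hr⟩
      obtain ⟨g, hg⟩ := exists_prime_orderOf_dvd_card' r hdvd
      obtain ⟨p, k, hp, hpk⟩ := h g
      have h1 : r ∣ p ^ k := hg ▸ orderOf_dvd_of_pow_eq_one hpk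
      have h4 := (Nat.prime_dvd_prime_iff_eq hr (hprime p hp)).mp (hr.dvd_of_dvd_pow h1)
      rw [h4]; exact hp
    · rintro (rfl | rfl | rfl)
      · obtain ⟨g, hg⟩ := h2; exact hg ▸ orderOf_dvd_natCard g
      · obtain ⟨g, hg⟩ := h3; exact hg ▸ orderOf_dvd_natCard g
      · obtain ⟨g, hg⟩ := h7; exact hg ▸ orderOf_dvd_natCard g
  · rintro r s hr hs hrs ⟨g, hg⟩
    obtain ⟨p, k, hp, hpk⟩ := h g
    have h1 : r * s ∣ p ^ k := hg ▸ orderOf_dvd_of_pow_eq_one hpk
    have hr' := (Nat.prime_dvd_prime_iff_eq hr (hprime p hp)).mp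
      (hr.dvd_of_dvd_pow ((Dvd.intro _ rfl).trans h1))
    have hs' := (Nat.prime_dvd_prime_iff_eq hs (hprime p hp)).mp
      (hs.dvd_of_dvd_pow ((Dvd.intro_left _ rfl).trans h1))
    exact hrs (hr'.trans hs'.symm)

end graph

end Cfsg.Agent.Lib.Helper64Trace
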