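import Mathlib
import Cfsg.Agent.S0023
import Cfsg.Agent.S0660
import Cfsg.Agent.Lib.Helper3PGroup
import Cfsg.Agent.Lib.Helper52Frattini

/-!
Bridge from an abstract coprime action (`MulDistribMulAction A G`) to the ambient results
(semidirect product): invariant Sylow subgroups, Maschke modulo the Frattini subgroup.
-/

set_option autoImplicit false

namespace Cfsg.Agent.Lib.Helper65Bridge

open SemidirectProduct
open scoped commutatorElement

variable {A G : Type*} [Group A] [Group G] [MulDistribMulAction A G]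

/-- invariance of a subgroup under the action -/
def Inv (A : Type*) {G : Type*} [Group A] [Group G] [MulDistribMulAction A G] (L : Subgroup G) : Prop :=
  ∀ a : A, ∀ x ∈ L, a • x ∈ L

theorem inl_smul (a : A) (g : G) :
    (inl (a • g) : G ⋊[MulDistribMulAction.toMulAut A G] A) = inr a * inl g * (inr a)⁻¹ := by
  have := inl_aut (φ := MulDistribMulAction.toMulAut A G) a g
  rw [map_inv] at this
  exact this

theorem inv_of_char (L : Subgroup G) [hL : L.Characteristic] : Inv A L := by
  intro a x hx
  have h := hL.fixed (MulDistribMulAction.toMulAut A G a)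
  have : x ∈ L.comap (MulDistribMulAction.toMulAut A G a).toMonoidHom := by rw [h]; exact hx
  exact this

theorem Inv.sup {L K : Subgroup G} (hL : Inv A L) (hK : Inv A K) : Inv A (L ⊔ K) := by
  intro a x hx
  have : L ⊔ K ≤ (L ⊔ K).comap (MulDistribMulAction.toMonoidHom G a) := by
    apply sup_le
    · intro y hy; exact (le_sup_left : L ≤ L ⊔ K) (hL a y hy)
    · intro y hy; exact (le_sup_right : K ≤ L ⊔ K) (hK a y hy)
  exact this hx

theorem range_inr_le_normalizer_map {L : Subgroup G} (hL : Inv A L) :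
    (inr : A →* G ⋊[MulDistribMulAction.toMulAut A G] A).range ≤
      Subgroup.normalizer ((L.map inl : Subgroup (G ⋊[MulDistribMulAction.toMulAut A G] A)) : Set _) := by
  have key : ∀ a : A, ∀ y ∈ (L.map inl : Subgroup (G ⋊[MulDistribMulAction.toMulAut A G] A)),
      inr a * y * (inr a)⁻¹ ∈ (L.map inl : Subgroup (G ⋊[MulDistribMulAction.toMulAut A G] A)) := by
    rintro a _ ⟨x, hx, rfl⟩
    exact ⟨a • x, hL a x hx, inl_smul a x⟩
  rintro _ ⟨a, rfl⟩
  rw [Subgroup.mem_normalizer_iff]
  intro y
  refine ⟨key a y, fun h => ?_⟩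
  have := key a⁻¹ _ h
  rw [map_inv] at this
  simpa [mul_assoc] using this

theorem inv_comap_of_le_normalizer {H : Subgroup (G ⋊[MulDistribMulAction.toMulAut A G] A)}
    (h : (inr : A →* G ⋊[MulDistribMulAction.toMulAut A G] A).range ≤ Subgroup.normalizer (H : Set _)) :
    Inv A (H.comap inl) := by
  intro a x hx
  rw [Subgroup.mem_comap] at hx ⊢
  rw [inl_smul]
  exact (Subgroup.mem_normalizer_iff.mp (h ⟨a, rfl⟩) _).mp hx

instance [Finite A] [Finite G] : Finite (G ⋊[MulDistribMulAction.toMulAut A G] A) :=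
  Finite.of_equiv _ SemidirectProduct.equivProd.symm

theorem card_range_inl : Nat.card (inl : G →* G ⋊[MulDistribMulAction.toMulAut A G] A).range = Nat.card G :=
  (Nat.card_congr (MonoidHom.ofInjective inl_injective).toEquiv).symm

theorem card_range_inr : Nat.card (inr : A →* G ⋊[MulDistribMulAction.toMulAut A G] A).range = Nat.card A :=
  (Nat.card_congr (MonoidHom.ofInjective inr_injective).toEquiv).symm

instance range_inl_normal : (inl : G →* G ⋊[MulDistribMulAction.toMulAut A G] A).range.Normal := by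
  rw [range_inl_eq_ker_rightHom]; infer_instance

/-- invariant Sylow subgroups for an abstract coprime action -/
theorem exists_inv_sylow [Finite A] [Finite G] (hcop : (Nat.card A).Coprime (Nat.card G))
    (hsol : Group.IsSolvable A ∨ Group.IsSolvable G) (p : ℕ) [Fact p.Prime] :
    ∃ P : Subgroup G, Inv A P ∧ Nat.card P = p ^ (Nat.card G).factorization p := by
  classical
  set K := (inl : G →* G ⋊[MulDistribMulAction.toMulAut A G] A).range with hK
  set B := (inr : A →* G ⋊[MulDistribMulAction.toMulAut A G] A).range with hB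
  have hBK : B ≤ Subgroup.normalizer (K : Set _) := by
    rw [Subgroup.normalizer_eq_top_iff.mpr inferInstance]; exact le_top
  have hs : Group.IsSolvable B ∨ Group.IsSolvable K := by
    rcases hsol with h | h
    · left
      exact Group.isSolvable_of_surjective (MonoidHom.rangeRestrict_surjective (inr : A →* G ⋊[MulDistribMulAction.toMulAut A G] A))
    · right
      exact Group.isSolvable_of_surjective (MonoidHom.rangeRestrict_surjective (inl : G →* G ⋊[MulDistribMulAction.toMulAut A G] A))
  obtain ⟨P, hP⟩ := Cfsg.Agent.S0023.result B K hBK (by rw [card_range_inr, card_range_inl]; exact hcop) hs p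
  refine ⟨((P : Subgroup K).map K.subtype).comap inl, inv_comap_of_le_normalizer hP, ?_⟩
  have h1 : (((P : Subgroup K).map K.subtype).comap inl).map inl = (P : Subgroup K).map K.subtype := by
    rw [Subgroup.map_comap_eq, inf_eq_right]
    rintro _ ⟨y, -, rfl⟩
    exact y.2
  have h2 : Nat.card ((((P : Subgroup K).map K.subtype).comap inl).map
      (inl : G →* G ⋊[MulDistribMulAction.toMulAut A G] A)) =
      Nat.card (((P : Subgroup K).map K.subtype).comap inl) :=
    Subgroup.card_map_of_injective inl_injective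
  rw [← h2, h1, Subgroup.card_map_of_injective K.subtype_injective, Sylow.card_eq_multiplicity,
    card_range_inl]

theorem map_inl_normal {L : Subgroup G} (hL : Inv A L) [hn : L.Normal] :
    (L.map (inl : G →* G ⋊[MulDistribMulAction.toMulAut A G] A)).Normal := by
  constructor
  rintro _ ⟨y, hy, rfl⟩ x
  refine ⟨x.left * (x.right • y) * x.left⁻¹, hn.conj_mem _ (hL _ _ hy) _, ?_⟩
  rw [map_mul, map_mul, inl_smul, map_inv]
  conv_rhs => rw [← inl_left_mul_inr_right x]
  group

/-- Maschke modulo the Frattini subgroup, for an abstract coprime action on a `p`-group. -/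
theorem exists_inv_compl [Finite A] [Finite G] {p : ℕ} [Fact p.Prime] (hG : IsPGroup p G)
    (hcop : (Nat.card A).Coprime (Nat.card G)) (L : Subgroup G) (hL : Inv A L)
    (hΦ : frattini G ≤ L) :
    ∃ L' : Subgroup G, Inv A L' ∧ frattini G ≤ L' ∧ L ⊔ L' = ⊤ ∧ L ⊓ L' = frattini G := by
  classical
  have hcomm : commutator G ≤ frattini G := Cfsg.Agent.Lib.Helper3PGroup.commutator_le_frattini hG
  have hLn : L.Normal := Cfsg.Agent.Lib.Helper3PGroup.normal_of_commutator_le (hcomm.trans hΦ)
  obtain ⟨B, hΦB, hLB, hLB'⟩ := Cfsg.Agent.Lib.Helper52Frattini.exists_compl_mod_frattini L hΦ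
    ((Subgroup.commutator_mono le_top le_top).trans hcomm)
  have hNn : ((frattini G).map (inl : G →* G ⋊[MulDistribMulAction.toMulAut A G] A)).Normal :=
    map_inl_normal (inv_of_char (A := A) (frattini G))
  set N := (frattini G).map (inl : G →* G ⋊[MulDistribMulAction.toMulAut A G] A) with hN
  set f : G →* (G ⋊[MulDistribMulAction.toMulAut A G] A) ⧸ N := (QuotientGroup.mk' N).comp inl with hf
  set r : A →* (G ⋊[MulDistribMulAction.toMulAut A G] A) ⧸ N := (QuotientGroup.mk' N).comp inr with hr
  have hfr : ∀ (a : A) (g : G), f (a • g) = r a * f g * (r a)⁻¹ := by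
    intro a g
    simp only [hf, hr, MonoidHom.comp_apply]
    rw [inl_smul, map_mul, map_mul, map_inv]
  have hker : ∀ g : G, f g = 1 ↔ g ∈ frattini G := by
    intro g
    simp only [hf, MonoidHom.comp_apply, QuotientGroup.mk'_apply, QuotientGroup.eq_one_iff]
    constructor
    · rintro ⟨y, hy, hyg⟩
      rwa [← inl_injective hyg]
    · intro h; exact ⟨g, h, rfl⟩
  have hkerf : f.ker = frattini G := by ext g; rw [MonoidHom.mem_ker, hker]
  have hnorm : ∀ K : Subgroup G, Inv A K → r.range ≤ Subgroup.normalizer ((K.map f : Subgroup _) : Set _) := by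
    intro K hK
    have key : ∀ a : A, ∀ y ∈ K.map f, r a * y * (r a)⁻¹ ∈ K.map f := by
      rintro a _ ⟨x, hx, rfl⟩
      exact ⟨a • x, hK a x hx, hfr a x⟩
    rintro _ ⟨a, rfl⟩
    rw [Subgroup.mem_normalizer_iff]
    intro y
    refine ⟨key a y, fun h => ?_⟩
    have := key a⁻¹ _ h
    rw [map_inv] at this
    simpa [mul_assoc] using this
  have hVab : IsMulCommutative ↥((⊤ : Subgroup G).map f) := by
    refine ⟨⟨?_⟩⟩
    rintro ⟨_, g, -, rfl⟩ ⟨_, h, -, rfl⟩
    apply Subtype.ext
    show f g * f h = f h * f g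
    have h1 : f ⁅g, h⁆ = 1 := (hker _).mpr (hcomm (Subgroup.commutator_mem_commutator
      (Subgroup.mem_top g) (Subgroup.mem_top h)))
    rw [commutatorElement_def, map_mul, map_mul, map_mul, map_inv, map_inv] at h1
    have h2 : f g * f h = (f g * f h * (f g)⁻¹ * (f h)⁻¹) * (f h * f g) := by group
    rw [h2, h1, one_mul]
  have htop : Inv A (⊤ : Subgroup G) := fun _ _ _ => Subgroup.mem_top _
  have hc : (Nat.card r.range).Coprime (Nat.card ↥((⊤ : Subgroup G).map f)) := by
    refine Nat.Coprime.coprime_dvd_left (Subgroup.card_range_dvd r) ?_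
    refine Nat.Coprime.coprime_dvd_right ?_ hcop
    have := Subgroup.card_map_dvd (⊤ : Subgroup G) f
    rwa [Subgroup.card_top] at this
  have hUW : L.map f ⊓ B.map f = ⊥ := by
    rw [eq_bot_iff]
    rintro _ ⟨⟨l, hl, rfl⟩, ⟨b, hb, hbl⟩⟩
    have h1 : f (b⁻¹ * l) = 1 := by rw [map_mul, map_inv, hbl]; group
    have h2 : b⁻¹ * l ∈ B := hΦB ((hker _).mp h1)
    have h3 : l ∈ B := by
      have := B.mul_mem hb h2
      simpa using this
    have h4 : l ∈ frattini G := by rw [← hLB']; exact ⟨hl, h3⟩
    exact Subgroup.mem_bot.mpr ((hker _).mpr h4)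
  obtain ⟨W', hW'V, hAW', hUW', hUW'V⟩ := Cfsg.Agent.S0660.result ((⊤ : Subgroup G).map f) r.range
    (L.map f) hVab (hnorm _ htop) hc (Subgroup.map_mono le_top) (hnorm _ hL) (B.map f)
    (Subgroup.map_mono le_top) hUW (by rw [← Subgroup.map_sup, hLB])
  refine ⟨W'.comap f, ?_, ?_, ?_, ?_⟩
  · intro a x hx
    rw [Subgroup.mem_comap] at hx ⊢
    rw [hfr]
    exact (Subgroup.mem_normalizer_iff.mp (hAW' ⟨a, rfl⟩) _).mp hx
  · intro x hx
    rw [Subgroup.mem_comap, (hker x).mpr hx]
    exact W'.one_mem
  · have h1 : (L ⊔ W'.comap f).map f = (⊤ : Subgroup G).map f := by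
      rw [Subgroup.map_sup, Subgroup.map_comap_eq, ← hUW'V]
      congr 1
      rw [inf_eq_right, MonoidHom.range_eq_map]
      exact hW'V
    have h2 := congrArg (Subgroup.comap f) h1
    rw [Subgroup.comap_map_eq, Subgroup.comap_map_eq, hkerf, top_sup_eq] at h2
    rw [← h2, eq_comm, sup_eq_left]
    exact hΦ.trans le_sup_left
  · apply le_antisymm
    · rintro x ⟨hxL, hxW⟩
      have : f x ∈ L.map f ⊓ W' := ⟨⟨x, hxL, rfl⟩, hxW⟩
      rw [hUW'] at this
      exact (hker x).mp (Subgroup.mem_bot.mp this)
    · refine le_inf hΦ ?_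
      intro x hx
      rw [Subgroup.mem_comap, (hker x).mpr hx]
      exact W'.one_mem

end Cfsg.Agent.Lib.Helper65Bridge
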