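import Cfsg.Agent.Lib.Helper43SpDefs
import Cfsg.Agent.Lib.Helper65SpAPI
import Cfsg.Agent.Lib.Helper65Spcbasic
import Cfsg.Agent.Lib.Helper65Sphxd

set_option autoImplicit false
set_option linter.unusedSimpArgs false

/-! Project 243 (wave 2), pieces `cxw`, `cwsq`, `chshort`, `chact`. -/

namespace Cfsg.Agent.Lib.Helper65Spcxw

open Matrix Cfsg.Agent.Lib.Helper43St Cfsg.Agent.Lib.Helper43Sp
open Cfsg.Agent.Lib.Helper65SpAPI Cfsg.Agent.Lib.Helper65Spcbasic Cfsg.Agent.Lib.Helper65Sphxd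

variable {m : ℕ} {F : Type*} [Field F] {P : Type*} [Group P] (S : CSys m F P)

theorem map_wX {i j : Fin m} (f : Sp 2 F →* P)
    (hf : ∀ c d t, c ≠ d → f (X c d t) = S.x (e2 i j c) (e2 i j d) t) (c d : I 2) (hcd : c ≠ d) (u : F) :
    f (wX c d u) = S.w (e2 i j c) (e2 i j d) u := by
  unfold wX CSys.w
  rw [map_mul, map_mul, hf _ _ _ hcd, hf _ _ _ hcd.symm]

theorem map_hX {i j : Fin m} (f : Sp 2 F →* P)
    (hf : ∀ c d t, c ≠ d → f (X c d t) = S.x (e2 i j c) (e2 i j d) t) (c d : I 2) (hcd : c ≠ d) (u : F) :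
    f (hX c d u) = S.hh (e2 i j c) (e2 i j d) u := by
  unfold hX CSys.hh
  rw [map_mul, map_inv, map_wX S f hf c d hcd, map_wX S f hf c d hcd]

theorem e2_l0' (i j : Fin m) : e2 i j (Sum.inl 0) = Sum.inl i := by simp [e2]
theorem e2_l1' (i j : Fin m) : e2 i j (Sum.inl 1) = Sum.inl j := by simp [e2]
theorem e2_r0' (i j : Fin m) : e2 i j (Sum.inr 0) = Sum.inr i := by simp [e2]
theorem e2_r1' (i j : Fin m) : e2 i j (Sum.inr 1) = Sum.inr j := by simp [e2]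

theorem exists_ne (hm : 2 ≤ m) (i : Fin m) : ∃ k : Fin m, i ≠ k := by
  by_cases h0 : i.val = 0
  · exact ⟨⟨1, by omega⟩, fun e => by rw [e] at h0; simp at h0⟩
  · exact ⟨⟨0, by omega⟩, fun e => by rw [e] at h0; simp at h0⟩

theorem n01 : (Sum.inl 0 : I 2) ≠ Sum.inl 1 := by decide
theorem n00 : (Sum.inl 0 : I 2) ≠ Sum.inr 0 := by decide
theorem n11 : (Sum.inl 1 : I 2) ≠ Sum.inr 1 := by decide

-- piece `cxw` (both)
theorem x_mul_w_short (i j : Fin m) (hij : i ≠ j) (u : F) (hu : u ≠ 0) :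
    S.x (Sum.inl i) (Sum.inl j) u * S.w (Sum.inl i) (Sum.inl j) 1 =
      S.x (Sum.inl j) (Sum.inl i) u⁻¹ * S.hh (Sum.inl i) (Sum.inl j) (-u) *
        S.x (Sum.inl i) (Sum.inl j) (-u⁻¹) := by
  obtain ⟨f, hf⟩ := S.quad i j hij
  have h := congrArg f (X_mul_wX_short (F := F) (0 : Fin 2) 1 (by decide) u hu)
  rw [map_mul, map_mul, map_mul, map_wX S f hf _ _ n01, map_hX S f hf _ _ n01, hf _ _ _ n01,
    hf _ _ _ n01, hf _ _ _ n01.symm, e2_l0', e2_l1'] at h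
  exact h

theorem x_mul_w_long (hm : 2 ≤ m) (i : Fin m) (u : F) (hu : u ≠ 0) :
    S.x (Sum.inl i) (Sum.inr i) u * S.w (Sum.inl i) (Sum.inr i) 1 =
      S.x (Sum.inr i) (Sum.inl i) u⁻¹ * S.hl i (-u) * S.x (Sum.inl i) (Sum.inr i) (-u⁻¹) := by
  obtain ⟨k, hk⟩ := exists_ne hm i
  obtain ⟨f, hf⟩ := S.quad i k hk
  have h := congrArg f (X_mul_wX_long (F := F) (0 : Fin 2) u hu)
  rw [map_mul, map_mul, map_mul, map_wX S f hf _ _ n00, map_hX S f hf _ _ n00, hf _ _ _ n00,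
    hf _ _ _ n00, hf _ _ _ n00.symm, e2_l0', e2_r0'] at h
  exact h

-- piece `cwsq` (both)
theorem w_sq_short (i j : Fin m) (hij : i ≠ j) :
    S.w (Sum.inl i) (Sum.inl j) 1 * S.w (Sum.inl i) (Sum.inl j) 1 = S.hh (Sum.inl i) (Sum.inl j) (-1) := by
  obtain ⟨f, hf⟩ := S.quad i j hij
  have h := congrArg f (wX_sq_short (F := F) (0 : Fin 2) 1 (by decide))
  rw [map_mul, map_wX S f hf _ _ n01, map_hX S f hf _ _ n01, e2_l0', e2_l1'] at h
  exact h

theorem w_sq_long (hm : 2 ≤ m) (i : Fin m) :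
    S.w (Sum.inl i) (Sum.inr i) 1 * S.w (Sum.inl i) (Sum.inr i) 1 = S.hl i (-1) := by
  obtain ⟨k, hk⟩ := exists_ne hm i
  obtain ⟨f, hf⟩ := S.quad i k hk
  have h := congrArg f (wX_sq_long (F := F) (0 : Fin 2))
  rw [map_mul, map_wX S f hf _ _ n00, map_hX S f hf _ _ n00, e2_l0', e2_r0'] at h
  exact h

-- piece `chshort`
theorem hh_short (i j : Fin m) (hij : i ≠ j) (u : F) (hu : u ≠ 0) :
    S.hh (Sum.inl i) (Sum.inl j) u = S.hl i u * (S.hl j u)⁻¹ := by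
  obtain ⟨f, hf⟩ := S.quad i j hij
  have h1 := hX_short (F := F) (0 : Fin 2) 1 (by decide) (Units.mk0 u hu)
  have h2 := hX_long (F := F) (0 : Fin 2) (Units.mk0 u hu)
  have h3 := hX_long (F := F) (1 : Fin 2) (Units.mk0 u hu)
  rw [Units.val_mk0] at h1 h2 h3
  have h4 : (hX (Sum.inl 0) (Sum.inl 1) u : Sp 2 F) =
      hX (Sum.inl 0) (Sum.inr 0) u * (hX (Sum.inl 1) (Sum.inr 1) u)⁻¹ := by
    rw [h1, h2, h3, D_mul, Cfsg.Agent.Lib.Helper36SpDval.D_inv, Pi.mulSingle_inv]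
  have h := congrArg f h4
  rw [map_mul, map_inv, map_hX S f hf _ _ n01, map_hX S f hf _ _ n00, map_hX S f hf _ _ n11,
    e2_l0', e2_l1', e2_r0', e2_r1'] at h
  exact h

/-- a root meeting the index `i` lies in a `quad i k` -/
theorem exists_quad_at (hm : 2 ≤ m) (i : Fin m) (c d : I m) (hcd : c ≠ d) (h : ab c = i ∨ ab d = i) :
    ∃ (k : Fin m) (_ : i ≠ k) (c' d' : I 2), c' ≠ d' ∧ e2 i k c' = c ∧ e2 i k d' = d := by
  by_cases h1 : ab c = i
  · by_cases h2 : ab d = i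
    · obtain ⟨k, hk⟩ := exists_ne hm i
      refine ⟨k, hk, l0 c, l0 d, ?_, ?_, ?_⟩
      · intro e
        apply hcd
        have e1 := e2_l0 c k
        have e2' := e2_l0 d k
        rw [h1] at e1
        rw [h2] at e2'
        rw [← e1, ← e2', e]
      · rw [← h1]; exact e2_l0 c k
      · rw [← h2]; exact e2_l0 d k
    · refine ⟨ab d, Ne.symm h2, l0 c, l1 d, fun e => ab_l0_ne_l1 c d (by rw [e]), ?_, ?_⟩
      · rw [← h1]; exact e2_l0 c _
      · exact e2_l1 d i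
  · have h2 : ab d = i := h.resolve_left h1
    refine ⟨ab c, Ne.symm h1, l1 c, l0 d, fun e => ab_l0_ne_l1 d c (by rw [e]), ?_, ?_⟩
    · exact e2_l1 c i
    · rw [← h2]; exact e2_l0 d _

-- piece `chact`
theorem h_act (hm : 2 ≤ m) (i : Fin m) (u : F) (hu : u ≠ 0) (c d : I m) (hcd : c ≠ d) (t : F) :
    ∃ t', S.hl i u * S.x c d t * (S.hl i u)⁻¹ = S.x c d t' := by
  by_cases h : ab c = i ∨ ab d = i
  · obtain ⟨k, hk, c', d', hcd', rfl, rfl⟩ := exists_quad_at hm i c d hcd h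
    obtain ⟨f, hf⟩ := S.quad i k hk
    have h2 := hX_long (F := F) (0 : Fin 2) (Units.mk0 u hu)
    rw [Units.val_mk0] at h2
    have h3 : S.hl i u = f (D (Pi.mulSingle 0 (Units.mk0 u hu))) := by
      rw [← h2, map_hX S f hf _ _ n00, e2_l0', e2_r0']
      rfl
    refine ⟨((chi (Pi.mulSingle 0 (Units.mk0 u hu)) c' : Fˣ) : F) *
      ((chi (Pi.mulSingle 0 (Units.mk0 u hu)) d' : Fˣ) : F)⁻¹ * t, ?_⟩
    rw [h3, ← hf _ _ _ hcd', ← map_inv, ← map_mul, ← map_mul, D_X _ _ _ hcd', hf _ _ _ hcd']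
  · push Not at h
    refine ⟨t, ?_⟩
    have e1 : ∀ s, Commute (S.x (Sum.inl i) (Sum.inr i) s) (S.x c d t) := fun s =>
      S.dis (Sum.inl i) (Sum.inr i) c d (by simp) hcd (Ne.symm h.1) (Ne.symm h.2) (Ne.symm h.1) (Ne.symm h.2) s t
    have e2 : ∀ s, Commute (S.x (Sum.inr i) (Sum.inl i) s) (S.x c d t) := fun s =>
      S.dis (Sum.inr i) (Sum.inl i) c d (by simp) hcd (Ne.symm h.1) (Ne.symm h.2) (Ne.symm h.1) (Ne.symm h.2) s t
    have e3 : ∀ s, Commute (S.w (Sum.inl i) (Sum.inr i) s) (S.x c d t) := fun s => by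
      unfold CSys.w
      exact ((e1 _).mul_left (e2 _)).mul_left (e1 _)
    have e4 : Commute (S.hl i u) (S.x c d t) := by
      unfold CSys.hl CSys.hh
      exact (e3 _).mul_left (e3 _).inv_left
    rw [e4.eq, mul_inv_cancel_right]

end Cfsg.Agent.Lib.Helper65Spcxw
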