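import Cfsg.Agent.Lib.Helper43SpDefs
import Cfsg.Agent.Lib.Helper65SpAPI
import Cfsg.Agent.Lib.Helper65Spcbasic
import Cfsg.Agent.Lib.Helper65Spcxw
import Cfsg.Agent.Lib.Helper28SpM2w

set_option autoImplicit false
set_option linter.unusedSimpArgs false

/-! Project 243 (wave 2), pieces `cwSq`, `cwL`, `cwlong`. -/

namespace Cfsg.Agent.Lib.Helper65Spcw

open Matrix Cfsg.Agent.Lib.Helper43St Cfsg.Agent.Lib.Helper43Sp
open Cfsg.Agent.Lib.Helper65SpAPI Cfsg.Agent.Lib.Helper65Spcbasic Cfsg.Agent.Lib.Helper65Spcxw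
open Cfsg.Agent.Lib.Helper28SpM2w

variable {m : ℕ} {F : Type*} [Field F] {P : Type*} [Group P] (S : CSys m F P)

theorem e2_sw_short (i j : Fin m) (hij : i ≠ j) (c : I 2) :
    e2 i j (sw (Sum.inl 0) (Sum.inl 1) c) = sw (Sum.inl i) (Sum.inl j) (e2 i j c) := by
  rcases c with c | c <;> fin_cases c <;>
    simp [sw, ng, e2, Equiv.swap_apply_def, hij, hij.symm]

theorem e2_sw_long (i k : Fin m) (hik : i ≠ k) (c : I 2) :
    e2 i k (sw (Sum.inl 0) (Sum.inr 0) c) = sw (Sum.inl i) (Sum.inr i) (e2 i k c) := by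
  rcases c with c | c <;> fin_cases c <;>
    simp [sw, ng, e2, Equiv.swap_apply_def, hik, hik.symm]

theorem e2_pmI (i j : Fin m) (hij : i ≠ j) (c : I 2) :
    e2 i j (pmI (Equiv.swap 0 1) c) = pmI (Equiv.swap i j) (e2 i j c) := by
  rcases c with c | c <;> fin_cases c <;>
    simp [pmI, e2, Equiv.swap_apply_def, hij, hij.symm]

theorem sw_short_fix (i j : Fin m) (c : I m) (h1 : ab c ≠ i) (h2 : ab c ≠ j) :
    sw (Sum.inl i) (Sum.inl j) c = c := by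
  rcases c with c | c <;> simp_all [sw, ng, ab, Equiv.swap_apply_def]

theorem sw_long_fix (i : Fin m) (c : I m) (h1 : ab c ≠ i) :
    sw (Sum.inl i) (Sum.inr i) c = c := by
  rcases c with c | c <;> simp_all [sw, ng, ab, Equiv.swap_apply_def]

theorem pmI_fix (i j : Fin m) (c : I m) (h1 : ab c ≠ i) (h2 : ab c ≠ j) :
    pmI (Equiv.swap i j) c = c := by
  rcases c with c | c <;> simp_all [pmI, ab, Equiv.swap_apply_def]

theorem exists_e2 (i j : Fin m) (c : I m) (h : ab c = i ∨ ab c = j) : ∃ c', e2 i j c' = c := by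
  rcases h with h | h
  · exact ⟨l0 c, by rw [← h]; exact e2_l0 c j⟩
  · exact ⟨l1 c, by rw [← h]; exact e2_l1 c i⟩

-- piece `cwSq`
theorem w_short_quad (i j : Fin m) (hij : i ≠ j) (c d : I m) (hcd : c ≠ d)
    (h1 : ab c = i ∨ ab c = j) (h2 : ab d = i ∨ ab d = j) (t : F) :
    (∃ t', S.w (Sum.inl i) (Sum.inl j) 1 * S.x c d t * (S.w (Sum.inl i) (Sum.inl j) 1)⁻¹ =
      S.x (sw (Sum.inl i) (Sum.inl j) c) (sw (Sum.inl i) (Sum.inl j) d) t') ∧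
    (∃ t', (S.w (Sum.inl i) (Sum.inl j) 1)⁻¹ * S.x c d t * S.w (Sum.inl i) (Sum.inl j) 1 =
      S.x (sw (Sum.inl i) (Sum.inl j) c) (sw (Sum.inl i) (Sum.inl j) d) t') := by
  obtain ⟨c', rfl⟩ := exists_e2 i j c h1
  obtain ⟨d', rfl⟩ := exists_e2 i j d h2
  have hcd' : c' ≠ d' := fun e => hcd (by rw [e])
  obtain ⟨f, hf⟩ := S.quad i j hij
  have hw : S.w (Sum.inl i) (Sum.inl j) 1 = f (wX (Sum.inl 0) (Sum.inl 1) 1) := by
    rw [map_wX S f hf _ _ n01, e2_l0', e2_l1']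
  have hne : sw (Sum.inl 0) (Sum.inl 1) c' ≠ sw (Sum.inl 0) (Sum.inl 1) d' :=
    (sw (Sum.inl 0 : I 2) (Sum.inl 1)).injective.ne hcd'
  obtain ⟨⟨t1, e1⟩, ⟨t2, e2'⟩⟩ := wX_short (F := F) c' d' hcd' t
  refine ⟨⟨t1, ?_⟩, ⟨t2, ?_⟩⟩
  · rw [hw, ← hf _ _ _ hcd', ← map_inv, ← map_mul, ← map_mul, e1, hf _ _ _ hne, e2_sw_short i j hij,
      e2_sw_short i j hij]
  · rw [hw, ← hf _ _ _ hcd', ← map_inv, ← map_mul, ← map_mul, e2', hf _ _ _ hne, e2_sw_short i j hij,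
      e2_sw_short i j hij]

-- piece `cwL`
theorem w_long (hm : 2 ≤ m) (i : Fin m) (c d : I m) (hcd : c ≠ d) (t : F) :
    (∃ t', S.w (Sum.inl i) (Sum.inr i) 1 * S.x c d t * (S.w (Sum.inl i) (Sum.inr i) 1)⁻¹ =
      S.x (sw (Sum.inl i) (Sum.inr i) c) (sw (Sum.inl i) (Sum.inr i) d) t') ∧
    (∃ t', (S.w (Sum.inl i) (Sum.inr i) 1)⁻¹ * S.x c d t * S.w (Sum.inl i) (Sum.inr i) 1 =
      S.x (sw (Sum.inl i) (Sum.inr i) c) (sw (Sum.inl i) (Sum.inr i) d) t') := by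
  by_cases h : ab c = i ∨ ab d = i
  · obtain ⟨k, hk, c', d', hcd', rfl, rfl⟩ := exists_quad_at hm i c d hcd h
    obtain ⟨f, hf⟩ := S.quad i k hk
    have hw : S.w (Sum.inl i) (Sum.inr i) 1 = f (wX (Sum.inl 0) (Sum.inr 0) 1) := by
      rw [map_wX S f hf _ _ n00, e2_l0', e2_r0']
    have hne : sw (Sum.inl 0) (Sum.inr 0) c' ≠ sw (Sum.inl 0) (Sum.inr 0) d' :=
      (sw (Sum.inl 0 : I 2) (Sum.inr 0)).injective.ne hcd'
    obtain ⟨⟨t1, e1⟩, ⟨t2, e2'⟩⟩ := wX_long (F := F) c' d' hcd' t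
    refine ⟨⟨t1, ?_⟩, ⟨t2, ?_⟩⟩
    · rw [hw, ← hf _ _ _ hcd', ← map_inv, ← map_mul, ← map_mul, e1, hf _ _ _ hne, e2_sw_long i k hk,
        e2_sw_long i k hk]
    · rw [hw, ← hf _ _ _ hcd', ← map_inv, ← map_mul, ← map_mul, e2', hf _ _ _ hne, e2_sw_long i k hk,
        e2_sw_long i k hk]
  · push Not at h
    have e1 : ∀ s, Commute (S.x (Sum.inl i) (Sum.inr i) s) (S.x c d t) := fun s =>
      S.dis (Sum.inl i) (Sum.inr i) c d (by simp) hcd (Ne.symm h.1) (Ne.symm h.2) (Ne.symm h.1)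
        (Ne.symm h.2) s t
    have e2 : ∀ s, Commute (S.x (Sum.inr i) (Sum.inl i) s) (S.x c d t) := fun s =>
      S.dis (Sum.inr i) (Sum.inl i) c d (by simp) hcd (Ne.symm h.1) (Ne.symm h.2) (Ne.symm h.1)
        (Ne.symm h.2) s t
    have e3 : Commute (S.w (Sum.inl i) (Sum.inr i) 1) (S.x c d t) := by
      unfold CSys.w
      exact ((e1 _).mul_left (e2 _)).mul_left (e1 _)
    rw [sw_long_fix i c h.1, sw_long_fix i d h.2]
    refine ⟨⟨t, ?_⟩, ⟨t, ?_⟩⟩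
    · rw [e3.eq, mul_inv_cancel_right]
    · rw [mul_assoc, ← e3.eq, inv_mul_cancel_left]

-- piece `cwlong`
theorem w_short_long (i j : Fin m) (hij : i ≠ j) (a : I m) (t : F) :
    S.w (Sum.inl i) (Sum.inl j) 1 * S.x a (ng a) t * (S.w (Sum.inl i) (Sum.inl j) 1)⁻¹ =
      S.x (pmI (Equiv.swap i j) a) (ng (pmI (Equiv.swap i j) a)) t ∧
    (S.w (Sum.inl i) (Sum.inl j) 1)⁻¹ * S.x a (ng a) t * S.w (Sum.inl i) (Sum.inl j) 1 =
      S.x (pmI (Equiv.swap i j) a) (ng (pmI (Equiv.swap i j) a)) t := by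
  by_cases h : ab a = i ∨ ab a = j
  · obtain ⟨a', rfl⟩ := exists_e2 i j a h
    obtain ⟨f, hf⟩ := S.quad i j hij
    have hw : S.w (Sum.inl i) (Sum.inl j) 1 = f (wX (Sum.inl 0) (Sum.inl 1) 1) := by
      rw [map_wX S f hf _ _ n01, e2_l0', e2_l1']
    obtain ⟨e1, e2'⟩ := wX_short_long (F := F) a' t
    rw [← e2_pmI i j hij, ← e2_ng, ← e2_ng, hw, ← hf _ _ _ (ne_ng'' a'), ← hf _ _ _ (ne_ng'' _), ← map_inv,
      ← map_mul, ← map_mul, ← map_mul, ← map_mul, e1, e2']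
    exact ⟨rfl, rfl⟩
  · push Not at h
    have e3 := w_short_dis S i j hij a (ng a) (ne_ng'' a) h.1 h.2 (by rw [ab_ng']; exact h.1)
      (by rw [ab_ng']; exact h.2) t
    rw [pmI_fix i j a h.1 h.2]
    refine ⟨?_, ?_⟩
    · rw [e3.eq, mul_inv_cancel_right]
    · rw [mul_assoc, ← e3.eq, inv_mul_cancel_left]

end Cfsg.Agent.Lib.Helper65Spcw
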