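import Mathlib

set_option autoImplicit false

namespace Cfsg.Agent.Lib.Helper65Trace

/-- **Trace lemma** for Frobenius-like groups `Q⟨h⟩` acting on an abelian group `A`: if all the
"traces" of the conjugates of `⟨h⟩` vanish, then `Q` acts trivially on `|Q|`-th powers. -/
theorem trace_lemma {Γ A : Type*} [Group Γ] [CommGroup A] (ρ : Γ →* Monoid.End A)
    (Q : Subgroup Γ) [Finite Q] (h : Γ) (m : ℕ) (hm : 0 < m)
    (hnorm : ∀ f ∈ Q, h⁻¹ * f * h ∈ Q)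
    (hfpf : ∀ i, 0 < i → i < m → ∀ f ∈ Q, f * h ^ i = h ^ i * f → f = 1)
    (htr : ∀ f ∈ Q, ∀ a : A, ∏ i ∈ Finset.range m, ρ (f * h ^ i * f⁻¹) a = 1) :
    ∀ f ∈ Q, ∀ a : A, (ρ f a) ^ Nat.card Q = a ^ Nat.card Q := by
  classical
  have _ : Fintype ↥Q := Fintype.ofFinite _
  have hρmul : ∀ (x y : Γ) (a : A), ρ (x * y) a = ρ x (ρ y a) := by
    intro x y a
    rw [map_mul]; rfl
  have hρprod : ∀ (x : Γ) (F : ↥Q → A), ρ x (∏ f : ↥Q, F f) = ∏ f : ↥Q, ρ x (F f) := by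
    intro x F
    exact map_prod (ρ x : A →* A) F Finset.univ
  have hn : ∀ (i : ℕ), ∀ f ∈ Q, (h ^ i)⁻¹ * f * h ^ i ∈ Q := by
    intro i
    induction i with
    | zero => intro f hf; simpa using hf
    | succ i ih =>
      intro f hf
      have := hnorm _ (ih f hf)
      have e : (h ^ (i + 1))⁻¹ * f * h ^ (i + 1) = h⁻¹ * ((h ^ i)⁻¹ * f * h ^ i) * h := by
        rw [pow_succ]; group
      rw [e]; exact this
  let T : A → A := fun a => ∏ f : ↥Q, ρ (f : Γ) a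
  have h2 : ∀ i, 0 < i → i < m → ∀ a : A,
      ∏ f : ↥Q, ρ ((f : Γ) * h ^ i * (f : Γ)⁻¹) a = ρ (h ^ i) (T a) := by
    intro i hi0 him a
    rw [hρprod]
    let σ : ↥Q → ↥Q := fun f => ⟨(h ^ i)⁻¹ * f * h ^ i * (f : Γ)⁻¹, Q.mul_mem (hn i f f.2) (Q.inv_mem f.2)⟩
    have hσinj : Function.Injective σ := by
      intro f₁ f₂ he
      have he' : (h ^ i)⁻¹ * f₁ * h ^ i * (f₁ : Γ)⁻¹ = (h ^ i)⁻¹ * f₂ * h ^ i * (f₂ : Γ)⁻¹ :=
        congrArg Subtype.val he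
      have h3 : ((f₂ : Γ)⁻¹ * f₁) * h ^ i = h ^ i * ((f₂ : Γ)⁻¹ * f₁) := by
        have h4 : (f₁ : Γ) * h ^ i * (f₁ : Γ)⁻¹ = f₂ * h ^ i * (f₂ : Γ)⁻¹ := by
          have := congrArg (fun z => h ^ i * z) he'
          simpa [mul_assoc] using this
        calc ((f₂ : Γ)⁻¹ * f₁) * h ^ i = (f₂ : Γ)⁻¹ * (f₁ * h ^ i * (f₁ : Γ)⁻¹) * f₁ := by group
          _ = (f₂ : Γ)⁻¹ * (f₂ * h ^ i * (f₂ : Γ)⁻¹) * f₁ := by rw [h4]
          _ = h ^ i * ((f₂ : Γ)⁻¹ * f₁) := by group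
      have h5 := hfpf i hi0 him _ (Q.mul_mem (Q.inv_mem f₂.2) f₁.2) h3
      apply Subtype.ext
      have : (f₁ : Γ) = f₂ * ((f₂ : Γ)⁻¹ * f₁) := by group
      rw [this, h5, mul_one]
    have hσbij : Function.Bijective σ := Finite.injective_iff_bijective.mp hσinj
    apply Fintype.prod_bijective σ hσbij
    intro f
    rw [← hρmul]
    congr 2
    change (f : Γ) * h ^ i * (f : Γ)⁻¹ = h ^ i * ((h ^ i)⁻¹ * f * h ^ i * (f : Γ)⁻¹)
    group
  have h3 : ∀ a : A, a ^ Nat.card Q = T a := by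
    intro a
    obtain ⟨m', rfl⟩ : ∃ m', m = m' + 1 := ⟨m - 1, by omega⟩
    have e1 : ∏ f : ↥Q, ∏ i ∈ Finset.range (m' + 1), ρ ((f : Γ) * h ^ i * (f : Γ)⁻¹) a = 1 :=
      Finset.prod_eq_one (fun f _ => htr f f.2 a)
    rw [Finset.prod_comm, Finset.prod_range_succ'] at e1
    have e2 : ∏ f : ↥Q, ρ ((f : Γ) * h ^ 0 * (f : Γ)⁻¹) a = a ^ Nat.card Q := by
      rw [Nat.card_eq_fintype_card, ← Finset.card_univ, ← Finset.prod_const]
      apply Finset.prod_congr rfl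
      intro f _
      simp
    have e3 : ∏ i ∈ Finset.range m', ∏ f : ↥Q, ρ ((f : Γ) * h ^ (i + 1) * (f : Γ)⁻¹) a =
        ∏ i ∈ Finset.range m', ρ (h ^ (i + 1)) (T a) := by
      apply Finset.prod_congr rfl
      intro i hi
      exact h2 (i + 1) (by omega) (by have := Finset.mem_range.mp hi; omega) a
    rw [e2, e3] at e1
    have e4 := htr 1 Q.one_mem (T a)
    rw [Finset.prod_range_succ'] at e4
    simp only [one_mul, inv_one, mul_one, pow_zero, map_one] at e4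
    have e5 : (1 : Monoid.End A) (T a) = T a := rfl
    rw [e5] at e4
    exact mul_left_cancel (e1.trans e4.symm)
  have h4 : ∀ f ∈ Q, ∀ a : A, ρ f (T a) = T a := by
    intro f hf a
    rw [hρprod]
    apply Fintype.prod_equiv (Equiv.mulLeft (⟨f, hf⟩ : ↥Q))
    intro f'
    rw [← hρmul]
    rfl
  intro f hf a
  have e : (ρ f a) ^ Nat.card Q = ρ f (a ^ Nat.card Q) := (map_pow (ρ f : A →* A) a _).symm
  rw [e, h3, h4 f hf]

end Cfsg.Agent.Lib.Helper65Trace
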