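import Cfsg.Agent.Lib.Helper65Trace
import Cfsg.Agent.Lib.Helper3PGroup
import Cfsg.Agent.S0029

set_option autoImplicit false

namespace Cfsg.Agent.Lib.Helper65Trace2

open Cfsg.Agent.Lib.Helper65Trace

variable {G : Type*} [Group G]

/-- The action of `N_G(P)` on the abelianization of `P`. -/
noncomputable def rho (P : Subgroup G) :
    ↥(Subgroup.normalizer (P : Set G)) →* Monoid.End (Abelianization ↥P) where
  toFun g := Abelianization.map (P.normalizerMonoidHom g).toMonoidHom
  map_one' := by
    apply Abelianization.hom_ext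
    ext x
    change Abelianization.map _ (Abelianization.of x) = Abelianization.of x
    simp
  map_mul' g₁ g₂ := by
    apply Abelianization.hom_ext
    ext x
    change Abelianization.map _ (Abelianization.of x) =
      Abelianization.map _ (Abelianization.map _ (Abelianization.of x))
    simp

theorem rho_of (P : Subgroup G) (g : ↥(Subgroup.normalizer (P : Set G))) (x : ↥P) :
    rho P g (Abelianization.of x) = Abelianization.of (P.normalizerMonoidHom g x) := by
  change Abelianization.map _ (Abelianization.of x) = _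
  simp

/-- Ambient core: `Q⟨h⟩` Frobenius-like acting on the `p`-group `P` (`p ∤ |Q|`); if every element
`x·h^f` (`x ∈ P`, `f ∈ Q`) has `m`-th power `1`, then `Q` centralizes `P`. -/
theorem core [Finite G] {p : ℕ} [Fact p.Prime] (P Q : Subgroup G) (h : G) (m : ℕ) (hm : 0 < m)
    (hP : IsPGroup p P) (hQP : Q ≤ Subgroup.normalizer (P : Set G))
    (hhP : h ∈ Subgroup.normalizer (P : Set G)) (hhQ : h ∈ Subgroup.normalizer (Q : Set G))
    (hcop : (Nat.card Q).Coprime p)
    (hfpf : ∀ i, 0 < i → i < m → ∀ f ∈ Q, f * h ^ i = h ^ i * f → f = 1)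
    (hA : ∀ x ∈ P, ∀ f ∈ Q, (x * (f * h * f⁻¹)) ^ m = 1) :
    Q ≤ Subgroup.centralizer (P : Set G) := by
  classical
  set Γ := ↥(Subgroup.normalizer (P : Set G)) with hΓ
  let Q' : Subgroup Γ := Q.subgroupOf (Subgroup.normalizer (P : Set G))
  let h' : Γ := ⟨h, hhP⟩
  have hcard : Nat.card Q' = Nat.card Q := Nat.card_congr (Subgroup.subgroupOfEquivOfLe hQP).toEquiv
  have key := trace_lemma (rho P) Q' h' m hm ?_ ?_ ?_
  · apply Cfsg.Agent.S0029.result Q P hQP
    · obtain ⟨k, hk⟩ := IsPGroup.iff_card.mp (hP.to_subgroup (frattini ↥P))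
      rw [hk]; exact hcop.pow_right k
    · intro a ha x hx
      have h1 := key ⟨a, hQP ha⟩ (Subgroup.mem_subgroupOf.mpr ha) (Abelianization.of ⟨x, hx⟩)
      rw [rho_of, hcard] at h1
      set y : ↥P := P.normalizerMonoidHom ⟨a, hQP ha⟩ ⟨x, hx⟩ * (⟨x, hx⟩ : ↥P)⁻¹ with hy
      have h2 : (Abelianization.of y) ^ Nat.card Q = 1 := by
        rw [hy, map_mul, mul_pow, h1, map_inv, inv_pow, mul_inv_cancel]
      obtain ⟨k, hk⟩ := hP y
      have h3 : (Abelianization.of y) ^ p ^ k = 1 := by rw [← map_pow, hk, map_one]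
      have h4 : Abelianization.of y = 1 := by
        have := pow_gcd_eq_one.mpr ⟨h2, h3⟩
        rwa [(hcop.pow_right k).gcd_eq_one, pow_one] at this
      have h5 : y ∈ commutator ↥P := (QuotientGroup.eq_one_iff y).mp h4
      exact ⟨y, Cfsg.Agent.Lib.Helper3PGroup.commutator_le_frattini hP h5, rfl⟩
  · intro f hf
    have hf' : (f : G) ∈ Q := Subgroup.mem_subgroupOf.mp hf
    apply Subgroup.mem_subgroupOf.mpr
    have := (Subgroup.mem_normalizer_iff.mp (Subgroup.inv_mem _ hhQ) f).mp hf'
    simpa using this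
  · intro i hi0 him f hf hcomm
    have hf' : (f : G) ∈ Q := Subgroup.mem_subgroupOf.mp hf
    have := hfpf i hi0 him f hf' (by simpa using congrArg Subtype.val hcomm)
    exact Subtype.ext this
  · intro f hf a
    have hf' : (f : G) ∈ Q := Subgroup.mem_subgroupOf.mp hf
    obtain ⟨x, rfl⟩ : ∃ x : ↥P, Abelianization.of x = a := QuotientGroup.mk_surjective a
    set k : Γ := f * h' * f⁻¹ with hk
    have hki : ∀ i : ℕ, f * h' ^ i * f⁻¹ = k ^ i := fun i => by rw [hk, conj_pow]
    simp only [hki]
    have hpow : ∀ n : ℕ, ∃ s : ↥P, ((x : G) * (k : G)) ^ n = s * (k : G) ^ n ∧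
        Abelianization.of s = ∏ i ∈ Finset.range n, rho P (k ^ i) (Abelianization.of x) := by
      intro n
      induction n with
      | zero => exact ⟨1, by simp, by simp⟩
      | succ n ih =>
        obtain ⟨s, hs1, hs2⟩ := ih
        refine ⟨s * P.normalizerMonoidHom (k ^ n) x, ?_, ?_⟩
        · rw [pow_succ, hs1]
          change (s : G) * (k : G) ^ n * ((x : G) * (k : G)) =
            (s : G) * (((k ^ n : Γ) : G) * (x : G) * ((k ^ n : Γ) : G)⁻¹) * (k : G) ^ (n + 1)
          rw [pow_succ]
          have e : ((k ^ n : Γ) : G) = (k : G) ^ n := rfl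
          rw [e]
          group
        · rw [map_mul, hs2, Finset.prod_range_succ, rho_of]
    obtain ⟨s, hs1, hs2⟩ := hpow m
    have e1 : ((x : G) * (k : G)) ^ m = 1 := hA x x.2 f hf'
    have e2 : (k : G) ^ m = 1 := by
      have := hA 1 P.one_mem f hf'
      rwa [one_mul] at this
    rw [e1, e2, mul_one] at hs1
    have : s = 1 := Subtype.ext hs1.symm
    rw [← hs2, this, map_one]

end Cfsg.Agent.Lib.Helper65Trace2
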