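import Cfsg.Agent.Lib.Helper20SNDefs

set_option autoImplicit false

/-! Project 73, piece `iso`.  The landed statement S2202 and the pieces `odd`, `cyc`, `nor` are
taken as hypotheses (at the type `G`) at the end. -/

namespace Cfsg.Agent.Lib.Helper66SNIso

open Cfsg.Agent.Lib.Helper20SNDefs

local notation "SL2" F => Matrix.SpecialLinearGroup (Fin 2) F

theorem CA.iso {G : Type*} [Group G] [Finite G] (h : CA G) (hns : ¬ Group.IsSolvable G)
    (s2202 : Even (Nat.card G) →
      (∀ t : G, orderOf t = 2 → IsMulCommutative ↥(Subgroup.centralizer ({t} : Set G))) →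
      (∀ P : Sylow 2 G, IsCyclic ↥P) ∨ (∀ P : Sylow 2 G, (P : Subgroup G).Normal) ∨
      (∃ (F : Type) (_ : Field F) (_ : Fintype F) (A : Type) (_ : CommGroup A) (_ : Finite A),
        CharP F 2 ∧ Odd (Nat.card A) ∧
          Nonempty (G ≃* Matrix.SpecialLinearGroup (Fin 2) F × A)))
    (odd : Odd (Nat.card G) → Group.IsSolvable G)
    (cyc : (∀ P : Sylow 2 G, IsCyclic P) → Group.IsSolvable G)
    (nor : (∀ P : Sylow 2 G, (P : Subgroup G).Normal) → Group.IsSolvable G) :
    ∃ (F : Type) (_ : Field F) (_ : Fintype F), CharP F 2 ∧ Nonempty (G ≃* SL2 F) := by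
  have heven : Even (Nat.card G) := by
    by_contra hne
    exact hns (odd (Nat.not_even_iff_odd.mp hne))
  have hcent : ∀ t : G, orderOf t = 2 →
      IsMulCommutative ↥(Subgroup.centralizer ({t} : Set G)) := by
    intro t ht
    apply (ab_iff _).1
    apply h.ab_centralizer
    rintro rfl
    rw [orderOf_one] at ht
    exact absurd ht (by decide)
  rcases s2202 heven hcent with h1 | h1 | ⟨F, iF, iFin, A, iA, iAf, hchar, -, ⟨e⟩⟩
  · exact absurd (cyc h1) hns
  · exact absurd (nor h1) hns
  · refine ⟨F, iF, iFin, hchar, ?_⟩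
    have hCA' : CA ((SL2 F) × A) := CA.of_equiv e h
    have hsub : Subsingleton A := by
      by_contra hA
      rw [not_subsingleton_iff_nontrivial] at hA
      obtain ⟨a, ha⟩ := exists_ne (1 : A)
      apply hns
      have hcomm : ∀ u v : G, u * v = v * u := by
        intro u v
        apply e.injective
        rw [map_mul, map_mul]
        have hx : ((1, a) : (SL2 F) × A) ≠ 1 := by
          intro hx
          exact ha (congrArg Prod.snd hx)
        have key := hCA' (1, a) hx ((e u).1, 1) ((e v).1, 1)
          (by ext1 <;> simp) (by ext1 <;> simp)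
        have k1 : (e u).1 * (e v).1 = (e v).1 * (e u).1 := congrArg Prod.fst key
        ext1
        · exact k1
        · exact mul_comm _ _
      exact Group.isSolvable_of_comm hcomm
    have _ : Unique A := ⟨⟨1⟩, fun a => Subsingleton.elim _ _⟩
    exact ⟨e.trans MulEquiv.prodUnique⟩

end Cfsg.Agent.Lib.Helper66SNIso
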