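import Cfsg.Agent.Lib.Helper43StDefs
import Cfsg.Agent.Lib.Helper30BPRelbasic

set_option autoImplicit false

/-! Project 43, wave 2: pieces udec, ufix, uinj. -/

namespace Cfsg.Agent.Lib.Helper67BPUdec

open Matrix Cfsg.Agent.Lib.Helper43St Cfsg.Agent.Lib.Helper43P3
open Cfsg.Agent.Lib.Helper30BPRelbasic
open scoped Pointwise

theorem conj_mem_closure {G : Type*} [Group G] (B : Set G) (g : G)
    (hg : ∀ b ∈ B, g * b * g⁻¹ ∈ Subgroup.closure B) :
    ∀ h ∈ Subgroup.closure B, g * h * g⁻¹ ∈ Subgroup.closure B := by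
  intro h hh
  induction hh using Subgroup.closure_induction with
  | mem x hx => exact hg x hx
  | one => simp
  | mul x y _ _ hx hy =>
    have : g * (x * y) * g⁻¹ = (g * x * g⁻¹) * (g * y * g⁻¹) := by group
    rw [this]; exact mul_mem hx hy
  | inv x _ hx =>
    have : g * x⁻¹ * g⁻¹ = (g * x * g⁻¹)⁻¹ := by group
    rw [this]; exact inv_mem hx

theorem closure_le_normalizer_closure {G : Type*} [Group G] (A B : Set G)
    (h : ∀ a ∈ A, ∀ b ∈ B, a * b * a⁻¹ ∈ Subgroup.closure B ∧ a⁻¹ * b * a ∈ Subgroup.closure B) :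
    Subgroup.closure A ≤ Subgroup.normalizer (Subgroup.closure B : Set G) := by
  rw [Subgroup.closure_le]
  intro a ha
  rw [SetLike.mem_coe, Subgroup.mem_normalizer_iff]
  intro x
  constructor
  · exact conj_mem_closure B a (fun b hb => (h a ha b hb).1) x
  · intro hx
    have h1 := conj_mem_closure B a⁻¹ (fun b hb => by rw [inv_inv]; exact (h a ha b hb).2) _ hx
    have h2 : a⁻¹ * (a * x * a⁻¹) * a⁻¹⁻¹ = x := by group
    rwa [h2] at h1

theorem exists_mul_of_mem_closure {G : Type*} [Group G] (A B C : Set G)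
    (h : ∀ a ∈ A, ∀ b ∈ B, a * b * a⁻¹ ∈ Subgroup.closure B ∧ a⁻¹ * b * a ∈ Subgroup.closure B)
    (hC : C ⊆ A ∪ B) (y : G) (hy : y ∈ Subgroup.closure C) :
    ∃ a ∈ Subgroup.closure A, ∃ b ∈ Subgroup.closure B, y = a * b := by
  have h1 : Subgroup.closure C ≤ Subgroup.closure A ⊔ Subgroup.closure B := by
    rw [Subgroup.closure_le]
    intro c hc
    rcases hC hc with h2 | h2
    · exact (le_sup_left : Subgroup.closure A ≤ _) (Subgroup.subset_closure h2)
    · exact (le_sup_right : Subgroup.closure B ≤ _) (Subgroup.subset_closure h2)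
  have h2 : y ∈ ((Subgroup.closure A ⊔ Subgroup.closure B : Subgroup G) : Set G) := h1 hy
  rw [Subgroup.coe_mul_of_left_le_normalizer_right _ _ (closure_le_normalizer_closure A B h)] at h2
  obtain ⟨a, ha, b, hb, rfl⟩ := Set.mem_mul.mp h2
  exact ⟨a, ha, b, hb, rfl⟩

variable {n : ℕ} {F : Type*} [Field F] {P : Type*} [Group P] (S : StSys n F P)

theorem conj_V (k i j l : Fin n) (hij : i < j) (hjk : j < k) (hl : l < k) (s t : F) :
    S.x i j s * S.x l k t * (S.x i j s)⁻¹ ∈ S.V k := by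
  have hik : i < k := hij.trans hjk
  by_cases h1 : l = j
  · subst h1
    rw [x_chain S i l k hij.ne hik.ne hjk.ne]
    exact mul_mem (Subgroup.subset_closure ⟨i, _, hik, rfl⟩) (Subgroup.subset_closure ⟨l, _, hl, rfl⟩)
  · by_cases h2 : l = i
    · subst h2
      rw [(x_comm_row S l j k hij.ne hik.ne hjk.ne s t).eq, mul_inv_cancel_right]
      exact Subgroup.subset_closure ⟨l, _, hl, rfl⟩
    · rw [(S.dis i j l k hij.ne hl.ne (Ne.symm h2) hik.ne (Ne.symm h1) hjk.ne s t).eq,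
        mul_inv_cancel_right]
      exact Subgroup.subset_closure ⟨l, _, hl, rfl⟩

-- piece `udec`
theorem u_dec (hn : 3 ≤ n) (k : Fin n) (y : P) (hy : y ∈ S.Uk (k.val + 1)) :
    ∃ y' ∈ S.Uk k.val, ∃ v ∈ S.V k, y = y' * v := by
  refine exists_mul_of_mem_closure _ _ _ ?_ ?_ y hy
  · rintro _ ⟨i, j, s, hij, hjk, rfl⟩ _ ⟨l, t, hl, rfl⟩
    have hjk' : j < k := hjk
    refine ⟨conj_V S k i j l hij hjk' hl s t, ?_⟩
    have := conj_V S k i j l hij hjk' hl (-s) t
    rw [← x_neg S hn i j hij.ne, inv_inv] at this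
    exact this
  · rintro _ ⟨i, j, t, hij, hjk, rfl⟩
    by_cases h : j.val < k.val
    · left; exact ⟨i, j, t, hij, h, rfl⟩
    · right
      have : j = k := Fin.ext (by omega)
      subst this
      exact ⟨i, t, hij, rfl⟩

theorem pi_mul (a b : P) : (S.π (a * b)).1 = (S.π a).1 * (S.π b).1 := by
  rw [map_mul]; rfl

theorem pi_one : (S.π 1).1 = 1 := by
  rw [map_one]; rfl

/-- the subgroup of the elements of `P` fixing a vector. -/
def fixSub (e : Fin n → F) : Subgroup P where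
  carrier := {y | (S.π y).1 *ᵥ e = e}
  one_mem' := by
    change (S.π 1).1 *ᵥ e = e
    rw [pi_one, Matrix.one_mulVec]
  mul_mem' := by
    intro a b ha hb
    change (S.π a).1 *ᵥ e = e at ha
    change (S.π b).1 *ᵥ e = e at hb
    change (S.π (a * b)).1 *ᵥ e = e
    rw [pi_mul, ← Matrix.mulVec_mulVec, hb, ha]
  inv_mem' := by
    intro a ha
    change (S.π a).1 *ᵥ e = e at ha
    change (S.π a⁻¹).1 *ᵥ e = e
    have h1 : (S.π a⁻¹).1 * (S.π a).1 = 1 := by
      rw [← pi_mul, inv_mul_cancel, pi_one]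
    calc (S.π a⁻¹).1 *ᵥ e = (S.π a⁻¹).1 *ᵥ ((S.π a).1 *ᵥ e) := by rw [ha]
      _ = e := by rw [Matrix.mulVec_mulVec, h1, Matrix.one_mulVec]

theorem mem_fixSub (e : Fin n → F) (y : P) : y ∈ fixSub S e ↔ (S.π y).1 *ᵥ e = e := Iff.rfl

-- piece `ufix`
theorem u_fix (k : Fin n) (y : P) (hy : y ∈ S.Uk k.val) :
    (S.π y).1 *ᵥ Pi.single k 1 = Pi.single k 1 := by
  rw [← mem_fixSub]
  revert y
  change S.Uk k.val ≤ fixSub S (Pi.single k 1)
  unfold StSys.Uk
  rw [Subgroup.closure_le]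
  rintro _ ⟨i, j, t, hij, hjk, rfl⟩
  rw [SetLike.mem_coe, mem_fixSub, S.hπ i j t hij.ne, Matrix.mulVec_single_one]
  funext a
  have hjk' : j ≠ k := fun h => by rw [h] at hjk; omega
  change (tv i j t : SpecialLinearGroup (Fin n) F) a k = _
  rw [tv_apply i j hij.ne, Pi.single_apply]
  simp [hjk']

-- piece `uinj`
theorem u_inj (hn : 3 ≤ n) (y : P) (hy : y ∈ S.U) (h : S.π y = 1)
    (v_inj : ∀ (k : Fin n) (v : P), v ∈ S.V k →
      (S.π v).1 *ᵥ Pi.single k 1 = Pi.single k 1 → v = 1) : y = 1 := by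
  have key : ∀ k : ℕ, k ≤ n → ∀ y ∈ S.Uk k, S.π y = 1 → y = 1 := by
    intro k
    induction k with
    | zero =>
      intro _ y hy _
      have : S.Uk 0 = ⊥ := by
        unfold StSys.Uk
        rw [Subgroup.closure_eq_bot_iff]
        rintro _ ⟨i, j, t, _, hj, _⟩
        omega
      rw [this, Subgroup.mem_bot] at hy
      exact hy
    | succ k ih =>
      intro hk y hy hπ
      obtain ⟨y', hy', v, hv, rfl⟩ := u_dec S hn ⟨k, by omega⟩ y hy
      have h1 := u_fix S ⟨k, by omega⟩ y' hy'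
      have h2 : y' * v ∈ fixSub S (Pi.single (⟨k, by omega⟩ : Fin n) 1) := by
        rw [mem_fixSub, hπ]
        exact Matrix.one_mulVec _
      have h3 : v ∈ fixSub S (Pi.single (⟨k, by omega⟩ : Fin n) 1) := by
        have h4 := (fixSub S (Pi.single (⟨k, by omega⟩ : Fin n) 1)).mul_mem
          ((fixSub S (Pi.single (⟨k, by omega⟩ : Fin n) 1)).inv_mem ((mem_fixSub S _ _).mpr h1)) h2
        rwa [inv_mul_cancel_left] at h4
      have h5 := v_inj ⟨k, by omega⟩ v hv h3
      subst h5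
      rw [mul_one] at hπ ⊢
      exact ih (by omega) y' hy' hπ
  apply key n le_rfl y _ h
  have : S.U ≤ S.Uk n := by
    unfold StSys.U StSys.Uk
    apply Subgroup.closure_mono
    rintro _ ⟨i, j, t, hij, rfl⟩
    exact ⟨i, j, t, hij, j.2, rfl⟩
  exact this hy

end Cfsg.Agent.Lib.Helper67BPUdec
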