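import Cfsg.Agent.Lib.Helper43StDefs
import Cfsg.Agent.Lib.Helper30BPRelbasic
import Cfsg.Agent.Lib.Helper15BPWact
import Cfsg.Agent.Lib.Helper67BPUdec

set_option autoImplicit false

/-! Project 43, wave 2: pieces d1a, d1b, genun. -/

namespace Cfsg.Agent.Lib.Helper67BPD1

open Matrix Cfsg.Agent.Lib.Helper43St Cfsg.Agent.Lib.Helper43P3
open Cfsg.Agent.Lib.Helper30BPRelbasic Cfsg.Agent.Lib.Helper67BPUdec

variable {n : ℕ} {F : Type*} [Field F] {P : Type*} [Group P] (S : StSys n F P)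

theorem conj_U' (i j k l : Fin n) (hij : i < j) (hkl : k < l) (hne : (k, l) ≠ (i, j)) (a t : F) :
    S.x i j a * S.x k l t * (S.x i j a)⁻¹ ∈ S.U' i j := by
  have hmem : ∀ (k' l' : Fin n) (t' : F), k' < l' → (k', l') ≠ (i, j) → S.x k' l' t' ∈ S.U' i j :=
    fun k' l' t' h1 h2 => Subgroup.subset_closure ⟨k', l', t', h1, h2, rfl⟩
  by_cases h1 : l = i
  · subst h1
    rw [x_chain' S k l j hkl.ne (hkl.trans hij).ne hij.ne]
    refine mul_mem (hmem _ _ _ (hkl.trans hij) ?_) (hmem _ _ _ hkl hne)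
    intro h
    exact hkl.ne (Prod.mk.inj h).1
  · by_cases h2 : k = j
    · subst h2
      rw [x_chain S i k l hij.ne (hij.trans hkl).ne hkl.ne]
      refine mul_mem (hmem _ _ _ (hij.trans hkl) ?_) (hmem _ _ _ hkl hne)
      intro h
      exact hkl.ne (Prod.mk.inj h).2.symm
    · by_cases h3 : k = i
      · subst h3
        have h4 : j ≠ l := fun h => hne (by rw [h])
        rw [(x_comm_row S k j l hij.ne hkl.ne h4 a t).eq, mul_inv_cancel_right]
        exact hmem _ _ _ hkl hne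
      · by_cases h4 : l = j
        · subst h4
          rw [(x_comm_col S i k l (Ne.symm h3) hij.ne hkl.ne a t).eq, mul_inv_cancel_right]
          exact hmem _ _ _ hkl hne
        · rw [(S.dis i j k l hij.ne hkl.ne (Ne.symm h3) (Ne.symm h1) (Ne.symm h2) (Ne.symm h4) a t).eq,
            mul_inv_cancel_right]
          exact hmem _ _ _ hkl hne

-- piece `d1a`
theorem d1a (hn : 3 ≤ n) (i j : Fin n) (hij : j.val = i.val + 1) (y : P) (hy : y ∈ S.U) :
    ∃ a, ∃ y' ∈ S.U' i j, y = S.x i j a * y' := by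
  have hlt : i < j := by rw [Fin.lt_def]; omega
  obtain ⟨g, hg, y', hy', rfl⟩ := exists_mul_of_mem_closure {g | ∃ a, g = S.x i j a}
    {g | ∃ k l t, k < l ∧ (k, l) ≠ (i, j) ∧ g = S.x k l t} _ (by
      rintro _ ⟨a, rfl⟩ _ ⟨k, l, t, hkl, hne, rfl⟩
      refine ⟨conj_U' S i j k l hlt hkl hne a t, ?_⟩
      have := conj_U' S i j k l hlt hkl hne (-a) t
      rw [← x_neg S hn i j hlt.ne, inv_inv] at this
      exact this) (by
      rintro _ ⟨k, l, t, hkl, rfl⟩
      by_cases h : (k, l) = (i, j)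
      · left
        obtain ⟨rfl, rfl⟩ := Prod.mk.inj h
        exact ⟨t, rfl⟩
      · right
        exact ⟨k, l, t, hkl, h, rfl⟩) y hy
  have hX : ∀ g ∈ Subgroup.closure {g | ∃ a, g = S.x i j a}, ∃ a, g = S.x i j a := by
    intro g hg
    induction hg using Subgroup.closure_induction with
    | mem x hx => exact hx
    | one => exact ⟨0, (x_zero S hn i j hlt.ne).symm⟩
    | mul x y _ _ hx hy =>
      obtain ⟨a, rfl⟩ := hx
      obtain ⟨b, rfl⟩ := hy
      exact ⟨a + b, (x_add S hn i j hlt.ne a b).symm⟩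
    | inv x _ hx =>
      obtain ⟨a, rfl⟩ := hx
      exact ⟨-a, x_neg S hn i j hlt.ne a⟩
  obtain ⟨a, rfl⟩ := hX g hg
  exact ⟨a, y', hy', rfl⟩

-- piece `d1b`
theorem d1b (hn : 3 ≤ n) (i j : Fin n) (hij : j.val = i.val + 1) (y : P) (hy : y ∈ S.U' i j) :
    (S.w i j 1)⁻¹ * y * S.w i j 1 ∈ S.U := by
  have hlt : i < j := by rw [Fin.lt_def]; omega
  induction hy using Subgroup.closure_induction with
  | mem x hx =>
    obtain ⟨k, l, t, hkl, hne, rfl⟩ := hx
    obtain ⟨t', ht'⟩ := (Cfsg.Agent.Lib.Helper15BPWact.w_act S hn i j hlt.ne k l hkl.ne t).2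
    rw [ht']
    refine Subgroup.subset_closure ⟨_, _, t', ?_, rfl⟩
    have hne' : ¬ (k = i ∧ l = j) := fun h => hne (by rw [h.1, h.2])
    rw [Equiv.swap_apply_def, Equiv.swap_apply_def]
    rw [Fin.lt_def] at hkl ⊢
    simp only [Fin.ext_iff] at hne' ⊢
    split_ifs <;> omega
  | one => simp
  | mul x y _ _ hx hy =>
    have : (S.w i j 1)⁻¹ * (x * y) * S.w i j 1 =
        ((S.w i j 1)⁻¹ * x * S.w i j 1) * ((S.w i j 1)⁻¹ * y * S.w i j 1) := by group
    rw [this]; exact mul_mem hx hy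
  | inv x _ hx =>
    have : (S.w i j 1)⁻¹ * x⁻¹ * S.w i j 1 = ((S.w i j 1)⁻¹ * x * S.w i j 1)⁻¹ := by group
    rw [this]; exact inv_mem hx

-- piece `genun`
theorem gen_UN (hn : 3 ≤ n) : S.U ⊔ S.N = ⊤ := by
  have hU : S.U ≤ S.U ⊔ S.N := le_sup_left
  have hN : S.N ≤ S.U ⊔ S.N := le_sup_right
  have key : ∀ d : ℕ, ∀ i j : Fin n, j.val < i.val → i.val - j.val ≤ d → ∀ t, S.x i j t ∈ S.U ⊔ S.N := by
    intro d
    induction d with
    | zero => intro i j h1 h2; omega
    | succ d ih =>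
      intro i j h1 h2 t
      by_cases h3 : i.val = j.val + 1
      · have hlt : j < i := h1
        obtain ⟨t', ht'⟩ := (Cfsg.Agent.Lib.Helper15BPWact.w_act S hn j i hlt.ne i j hlt.ne' t).1
        rw [Equiv.swap_apply_right, Equiv.swap_apply_left] at ht'
        have hw : S.w j i 1 ∈ S.U ⊔ S.N := hN (Subgroup.subset_closure ⟨j, i, h3, rfl⟩)
        have hx : S.x j i t' ∈ S.U ⊔ S.N := hU (Subgroup.subset_closure ⟨j, i, t', hlt, rfl⟩)
        have e : S.x i j t = (S.w j i 1)⁻¹ * S.x j i t' * S.w j i 1 := by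
          rw [← ht']; group
        rw [e]
        exact mul_mem (mul_mem (inv_mem hw) hx) hw
      · have hk : j.val + 1 < n := by omega
        set k : Fin n := ⟨j.val + 1, hk⟩ with hkdef
        have hkv : k.val = j.val + 1 := rfl
        have hik : i ≠ k := fun h => h3 (by rw [h])
        have hij : i ≠ j := fun h => by rw [h] at h1; omega
        have hkj : k ≠ j := fun h => by rw [h] at hkv; omega
        have h4 := x_chain S i k j hik hij hkj t 1
        rw [mul_one] at h4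
        have e : S.x i j t = S.x i k t * S.x k j 1 * (S.x i k t)⁻¹ * (S.x k j 1)⁻¹ := by
          rw [h4, mul_inv_cancel_right]
        have m1 : S.x i k t ∈ S.U ⊔ S.N := ih i k (by omega) (by omega) t
        have m2 : S.x k j 1 ∈ S.U ⊔ S.N := ih k j (by omega) (by omega) 1
        rw [e]
        exact mul_mem (mul_mem (mul_mem m1 m2) (inv_mem m1)) (inv_mem m2)
  rw [eq_top_iff, ← S.gen, Subgroup.closure_le]
  rintro _ ⟨i, j, t, hij, rfl⟩
  rcases lt_or_gt_of_ne hij with h | h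
  · exact hU (Subgroup.subset_closure ⟨i, j, t, h, rfl⟩)
  · exact key _ i j h le_rfl t

end Cfsg.Agent.Lib.Helper67BPD1
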