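import Cfsg.Agent.Lib.Helper43StDefs
import Cfsg.Agent.Lib.Helper67BPUdec

set_option autoImplicit false

/-! Project 43, wave 2: piece ut. -/

namespace Cfsg.Agent.Lib.Helper67BPUt

open Matrix Cfsg.Agent.Lib.Helper43St Cfsg.Agent.Lib.Helper43P3
open Cfsg.Agent.Lib.Helper67BPUdec

variable {n : ℕ} {F : Type*} [Field F] {P : Type*} [Group P] (S : StSys n F P)

theorem mul_tv_apply (M : Matrix (Fin n) (Fin n) F) (i j : Fin n) (h : i ≠ j) (t : F) (a b : Fin n) :
    (M * (tv i j t : SpecialLinearGroup (Fin n) F).1) a b = M a b + if b = j then M a i * t else 0 := by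
  have h1 : (tv i j t : SpecialLinearGroup (Fin n) F).1 = 1 + Matrix.single i j t := tv_val i j h t
  rw [h1, mul_add, mul_one, Matrix.add_apply]
  congr 1
  split_ifs with hb
  · subst hb
    simp
  · simp [Matrix.mul_single_apply_of_ne _ _ _ _ _ hb]

theorem pi_x_inv (i j : Fin n) (h : i ≠ j) (t : F) : S.π (S.x i j t)⁻¹ = tv i j (-t) := by
  rw [map_inv, S.hπ i j t h, tv_inv]

-- piece `ut`
theorem ut_U (y : P) (hy : y ∈ S.U) :
    (∀ i j, j < i → (S.π y).1 i j = 0) ∧ (∀ i, (S.π y).1 i i = 1) := by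
  have step : ∀ (x : P) (i j : Fin n) (t : F), i < j →
      ((∀ i j, j < i → (S.π x).1 i j = 0) ∧ (∀ i, (S.π x).1 i i = 1)) →
      ((∀ a b, b < a → ((S.π x).1 * (tv i j t : SpecialLinearGroup (Fin n) F).1) a b = 0) ∧
        (∀ a, ((S.π x).1 * (tv i j t : SpecialLinearGroup (Fin n) F).1) a a = 1)) := by
    intro x i j t hij ⟨h1, h2⟩
    constructor
    · intro a b hab
      rw [mul_tv_apply _ i j hij.ne, h1 a b hab, zero_add]
      split_ifs with hb
      · subst hb
        rw [h1 a i (hij.trans hab), zero_mul]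
      · rfl
    · intro a
      rw [mul_tv_apply _ i j hij.ne, h2 a]
      split_ifs with hb
      · subst hb
        rw [h1 a i hij, zero_mul, add_zero]
      · rw [add_zero]
  induction hy using Subgroup.closure_induction_right with
  | one =>
    rw [pi_one]
    exact ⟨fun i j h => Matrix.one_apply_ne h.ne', fun i => Matrix.one_apply_eq i⟩
  | mul_right x _ y hy ih =>
    obtain ⟨i, j, t, hij, rfl⟩ := hy
    rw [pi_mul, S.hπ i j t hij.ne]
    exact step x i j t hij ih
  | mul_inv_cancel x _ y hy ih =>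
    obtain ⟨i, j, t, hij, rfl⟩ := hy
    rw [pi_mul, pi_x_inv S i j hij.ne]
    exact step x i j (-t) hij ih

theorem mul_W_apply (M : Matrix (Fin n) (Fin n) F) (i j : Fin n) (h : i ≠ j) (a b : F)
    (hab : a * b = -1) (r c : Fin n) :
    (M * (tv i j a : SpecialLinearGroup (Fin n) F).1 * (tv j i b : SpecialLinearGroup (Fin n) F).1 *
      (tv i j a : SpecialLinearGroup (Fin n) F).1) r c =
      if c = i then b * M r j else if c = j then a * M r i else M r c := by
  rw [mul_tv_apply _ i j h, mul_tv_apply _ j i h.symm, mul_tv_apply _ i j h,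
    mul_tv_apply _ j i h.symm, mul_tv_apply _ i j h, mul_tv_apply _ i j h]
  by_cases h1 : c = i
  · subst h1
    simp only [if_true, if_neg h]
    linear_combination (M r c) * hab
  · by_cases h2 : c = j
    · subst h2
      simp only [if_true, if_neg h, if_neg h.symm]
      linear_combination (M r c + a * M r i) * hab
    · simp only [if_neg h1, if_neg h2, if_true, if_neg h]
      ring

theorem offdiag_step (M : Matrix (Fin n) (Fin n) F) (hM : ∀ r c, r ≠ c → M r c = 0) (i j : Fin n)
    (h : i ≠ j) (a b a' b' : F) (hab : a * b = -1) (hab' : a' * b' = -1) (r c : Fin n) (hrc : r ≠ c) :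
    (M * ((tv i j a : SpecialLinearGroup (Fin n) F) * tv j i b * tv i j a *
      (tv i j a' * tv j i b' * tv i j a')).1) r c = 0 := by
  have e : ((tv i j a : SpecialLinearGroup (Fin n) F) * tv j i b * tv i j a *
      (tv i j a' * tv j i b' * tv i j a')).1 =
      (tv i j a : SpecialLinearGroup (Fin n) F).1 * (tv j i b : SpecialLinearGroup (Fin n) F).1 *
        (tv i j a : SpecialLinearGroup (Fin n) F).1 *
      ((tv i j a' : SpecialLinearGroup (Fin n) F).1 * (tv j i b' : SpecialLinearGroup (Fin n) F).1 *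
        (tv i j a' : SpecialLinearGroup (Fin n) F).1) := rfl
  rw [e]
  simp only [← Matrix.mul_assoc]
  rw [mul_W_apply _ i j h a' b' hab']
  split_ifs with h1 h2
  · subst h1
    rw [mul_W_apply _ c j h a b hab, if_neg h.symm, if_pos rfl, hM r c hrc]
    ring
  · subst h2
    rw [mul_W_apply _ i c h a b hab, if_pos rfl, hM r c hrc]
    ring
  · rw [mul_W_apply _ i j h a b hab, if_neg h1, if_neg h2, hM r c hrc]

theorem ut_H (η : P) (hη : η ∈ S.H) : ∀ i j, i ≠ j → (S.π η).1 i j = 0 := by
  induction hη using Subgroup.closure_induction_right with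
  | one =>
    rw [pi_one]
    exact fun i j h => Matrix.one_apply_ne h
  | mul_right x _ y hy ih =>
    obtain ⟨i, j, a, hij, ha, rfl⟩ := hy
    intro r c hrc
    rw [pi_mul]
    have e : S.π (S.hh i j a) = tv i j a * tv j i (-a⁻¹) * tv i j a *
        (tv i j (-1) * tv j i (- -1⁻¹) * tv i j (-1)) := by
      unfold StSys.hh StSys.w
      simp only [map_mul, map_inv, S.hπ i j _ hij, S.hπ j i _ hij.symm, _root_.mul_inv_rev, tv_inv,
        mul_assoc]
    rw [e]
    exact offdiag_step _ ih i j hij _ _ _ _ (by field_simp) (by simp) r c hrc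
  | mul_inv_cancel x _ y hy ih =>
    obtain ⟨i, j, a, hij, ha, rfl⟩ := hy
    intro r c hrc
    rw [pi_mul]
    have e : S.π (S.hh i j a)⁻¹ = tv i j 1 * tv j i (-1⁻¹) * tv i j 1 *
        (tv i j (-a) * tv j i (- -a⁻¹) * tv i j (-a)) := by
      unfold StSys.hh StSys.w
      simp only [map_mul, map_inv, S.hπ i j _ hij, S.hπ j i _ hij.symm, _root_.mul_inv_rev, tv_inv,
        mul_assoc, inv_inv]
    rw [e]
    exact offdiag_step _ ih i j hij _ _ _ _ (by simp) (by field_simp) r c hrc

end Cfsg.Agent.Lib.Helper67BPUt
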