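import Mathlib
import Cfsg.Agent.Lib.Helper31Nilpotent

set_option autoImplicit false

namespace Cfsg.Agent.Lib.Helper98NilDecomp
open Equiv
open scoped Pointwise

theorem nilp_decomp {G : Type*} [Group G] [Finite G] [hG : Group.IsNilpotent G] (p : ℕ) [Fact p.Prime] :
    ∃ P K : Subgroup G, IsPGroup p P ∧ (Nat.card K).Coprime p ∧
      (∀ x ∈ P, ∀ y ∈ K, x * y = y * x) ∧ (∀ g : G, ∃ x ∈ P, ∃ y ∈ K, g = x * y) ∧
      Nat.card P * Nat.card K = Nat.card G := by
  obtain ⟨P⟩ : Nonempty (Sylow p G) := inferInstance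
  have hall : ∀ (p : ℕ) (_hp : Fact p.Prime) (P : Sylow p G), (P : Subgroup G).Normal :=
    ((Group.isNilpotent_of_finite_tfae (G := G)).out 0 3).mp hG
  have hnorm : (P : Subgroup G).Normal := hall p inferInstance P
  have hcop : (Nat.card (P : Subgroup G)).Coprime (P : Subgroup G).index := P.card_coprime_index
  obtain ⟨K, hK⟩ := Subgroup.exists_right_complement'_of_coprime hcop
  have hmul : Nat.card (P : Subgroup G) * Nat.card K = Nat.card G := hK.card_mul_card
  have hKidx : Nat.card K = (P : Subgroup G).index := by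
    have h1 := (P : Subgroup G).card_mul_index
    have hpos : 0 < Nat.card (P : Subgroup G) := Nat.card_pos
    exact Nat.eq_of_mul_eq_mul_left hpos (hmul.trans h1.symm)
  have hKp : (Nat.card K).Coprime p := by
    rw [hKidx, Nat.coprime_comm, Nat.Prime.coprime_iff_not_dvd Fact.out]
    exact P.not_dvd_index
  refine ⟨P, K, P.isPGroup', hKp, ?_, ?_, hmul⟩
  · intro x hx y hy
    apply Cfsg.Agent.Lib.Helper31Nilpotent.coprime_commute G x y
    obtain ⟨k, hk⟩ := P.isPGroup' ⟨x, hx⟩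
    have hxo : orderOf x ∣ p ^ k := by
      apply orderOf_dvd_of_pow_eq_one
      have := congrArg Subtype.val hk
      simpa using this
    have hyo : orderOf y ∣ Nat.card K := by
      have := orderOf_dvd_natCard (⟨y, hy⟩ : K)
      rwa [Subgroup.orderOf_mk] at this
    exact Nat.Coprime.coprime_dvd_left hxo (Nat.Coprime.coprime_dvd_right hyo
      (Nat.Coprime.pow_left k hKp.symm))
  · intro g
    have := hK.mul_eq
    have hg : g ∈ ((P : Subgroup G) : Set G) * (K : Set G) := by rw [this]; trivial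
    obtain ⟨x, hx, y, hy, rfl⟩ := Set.mem_mul.mp hg
    exact ⟨x, hx, y, hy, rfl⟩

theorem nilp_decomp_sub {H : Type*} [Group H] (N : Subgroup H) [Finite N] (hN : Group.IsNilpotent N)
    (p : ℕ) [Fact p.Prime] :
    ∃ P K : Subgroup H, P ≤ N ∧ K ≤ N ∧ IsPGroup p P ∧ (Nat.card K).Coprime p ∧
      (∀ x ∈ P, ∀ y ∈ K, x * y = y * x) ∧ (∀ g ∈ N, ∃ x ∈ P, ∃ y ∈ K, g = x * y) ∧
      Nat.card P * Nat.card K = Nat.card N := by
  obtain ⟨P, K, hP, hK, hcomm, hfac, hmul⟩ := nilp_decomp (G := N) p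
  have hinj : Function.Injective N.subtype := Subgroup.subtype_injective _
  refine ⟨P.map N.subtype, K.map N.subtype, Subgroup.map_subtype_le P, Subgroup.map_subtype_le K,
    hP.map _, ?_, ?_, ?_, ?_⟩
  · rwa [Subgroup.card_map_of_injective hinj]
  · rintro _ ⟨x, hx, rfl⟩ _ ⟨y, hy, rfl⟩
    have := congrArg N.subtype (hcomm x hx y hy)
    simpa using this
  · intro g hg
    obtain ⟨x, hx, y, hy, h⟩ := hfac ⟨g, hg⟩
    exact ⟨x, ⟨x, hx, rfl⟩, y, ⟨y, hy, rfl⟩, by simpa using congrArg N.subtype h⟩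
  · rw [Subgroup.card_map_of_injective hinj, Subgroup.card_map_of_injective hinj, hmul]

theorem eq_one_of_fix_orbit {α : Type*} (P K : Subgroup (Perm α))
    (hcomm : ∀ x ∈ P, ∀ y ∈ K, x * y = y * x) (a : α)
    (htrans : ∀ b : α, ∃ x ∈ P, ∃ y ∈ K, (x * y) a = b) (u : Perm α) (hu : u ∈ P)
    (hfix : ∀ b ∈ MulAction.orbit P a, u b = b) : u = 1 := by
  ext b
  obtain ⟨x, hx, y, hy, rfl⟩ := htrans b
  have h1 : u (x a) = x a := hfix _ ⟨⟨x, hx⟩, rfl⟩
  have h2 : (x * y) a = y (x a) := by rw [hcomm x hx y hy]; rfl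
  have h3 : u (y (x a)) = y (u (x a)) := by
    have := congrArg (fun f : Perm α => f (x a)) (hcomm u hu y hy)
    simpa using this
  rw [h2, h3, h1]; rfl

end Cfsg.Agent.Lib.Helper98NilDecomp
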