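import Mathlib

set_option autoImplicit false

/-!
Definitions for the project "nilpotent subgroups of largest order in the symmetric and alternating groups".
-/

namespace Cfsg.Agent.Lib.Helper98NilDefs

/-- The order of a Sylow 2-subgroup of the symmetric group of degree `n`. -/
def f2 (n : ℕ) : ℕ := 2 ^ padicValNat 2 n.factorial

/-- The largest order of a nilpotent subgroup of the symmetric group of degree `n`. -/
def B (n : ℕ) : ℕ := if n % 4 = 3 then 3 * f2 (n - 3) else f2 n

/-- Table of the bound for odd order nilpotent groups in degree `< 16`. -/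
def BoTab : List ℕ := [1, 1, 1, 3, 3, 5, 9, 9, 15, 81, 81, 81, 243, 243, 405, 729]

/-- A bound for the order of a nilpotent subgroup of odd order of the symmetric group of degree `n`. -/
def Bo (n : ℕ) : ℕ := if n < 16 then BoTab.getD n 1 else 3 ^ ((n - 1) / 2)

/-- `β` is a good bound for nilpotent permutation groups whose order involves only primes in `π`. -/
structure GoodBound (π : ℕ → Prop) (β : ℕ → ℕ) : Prop where
  pos : ∀ n, 1 ≤ β n
  mul_le : ∀ a b, β a * β b ≤ β (a + b)
  prime_pow : ∀ p a, p.Prime → π p → p ^ padicValNat p (p ^ a).factorial ≤ β (p ^ a)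

theorem GoodBound.mono {π : ℕ → Prop} {β : ℕ → ℕ} (h : GoodBound π β) {a b : ℕ} (hab : a ≤ b) :
    β a ≤ β b := by
  obtain ⟨c, rfl⟩ := Nat.exists_eq_add_of_le hab
  calc β a = β a * 1 := (mul_one _).symm
    _ ≤ β a * β c := Nat.mul_le_mul_left _ (h.pos c)
    _ ≤ β (a + c) := h.mul_le a c

/-- The pointwise stabiliser of a finset of points. -/
def fixer {α : Type*} (S : Finset α) : Subgroup (Equiv.Perm α) where
  carrier := {σ | ∀ x ∈ S, σ x = x}
  mul_mem' := fun {a b} ha hb x hx => by simp [hb x hx, ha x hx]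
  one_mem' := fun _ _ => rfl
  inv_mem' := fun {a} ha x hx => by rw [Equiv.Perm.inv_eq_iff_eq]; exact (ha x hx).symm

theorem mem_fixer {α : Type*} {S : Finset α} {σ : Equiv.Perm α} :
    σ ∈ fixer S ↔ ∀ x ∈ S, σ x = x := Iff.rfl

end Cfsg.Agent.Lib.Helper98NilDefs
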