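import Mathlib
import Cfsg.Agent.Lib.Helper98NilDefs
import Cfsg.Agent.Lib.Helper98NilDecomp

set_option autoImplicit false

/-! Project 98, pieces k0, k1, k2, k5, sylconj, k6. -/

namespace Cfsg.Agent.Lib.Helper67NilStruct
open Cfsg.Agent.Lib.Helper98NilDefs Equiv
open Cfsg.Agent.Lib.Helper98NilDecomp
open scoped Pointwise

-- [k0]
theorem struct_three {H : Type*} [Group H] (N : Subgroup H) [Finite N] (hN : Group.IsNilpotent N) (k : ℕ)
    (hc : Nat.card N = 3 * 2 ^ k) :
    ∃ (z : H) (K : Subgroup H), orderOf z = 3 ∧ Nat.card K = 2 ^ k ∧ (∀ y ∈ K, y * z = z * y) ∧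
      N = Subgroup.zpowers z ⊔ K := by
  have : Fact (Nat.Prime 3) := ⟨Nat.prime_three⟩
  obtain ⟨P, K, hPN, hKN, hP, hK, hcomm, hfac, hmul⟩ := nilp_decomp_sub N hN 3
  have : Finite P := Finite.of_injective (Subgroup.inclusion hPN) (Subgroup.inclusion_injective hPN)
  obtain ⟨n, hn⟩ := IsPGroup.iff_card.mp hP
  rw [hn, hc] at hmul
  have h32 : Nat.Coprime 3 (2 ^ k) := Nat.Coprime.pow_right k (by norm_num)
  have hn1 : n = 1 := by
    have hle : n ≤ 1 := by
      have h1 : 3 ^ n ∣ 3 * 2 ^ k := ⟨_, hmul.symm⟩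
      have h2 : 3 ^ n ∣ 3 ^ 1 := by
        rw [pow_one]
        exact (Nat.Coprime.dvd_of_dvd_mul_right (Nat.Coprime.pow_left n h32) h1)
      exact (Nat.pow_dvd_pow_iff_le_right (by norm_num)).mp h2
    have hge : n ≠ 0 := by
      rintro rfl
      have h1 : 3 ∣ Nat.card K := by
        rw [pow_zero, one_mul] at hmul
        rw [hmul]; exact dvd_mul_right _ _
      have := Nat.Coprime.eq_one_of_dvd hK.symm h1
      omega
    omega
  subst hn1
  rw [pow_one] at hmul hn
  have hKc : Nat.card K = 2 ^ k := Nat.eq_of_mul_eq_mul_left (by norm_num) hmul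
  obtain ⟨z, hz⟩ := exists_prime_orderOf_dvd_card' (G := P) 3 (by rw [hn])
  have hz' : orderOf (z : H) = 3 := by rw [Subgroup.orderOf_coe]; exact hz
  have hzP : Subgroup.zpowers (z : H) = P := by
    apply Subgroup.eq_of_le_of_card_ge
    · rw [Subgroup.zpowers_le]; exact z.2
    · rw [Nat.card_zpowers, hz', hn]
  refine ⟨z, K, hz', hKc, fun y hy => (hcomm z z.2 y hy).symm, ?_⟩
  rw [hzP]
  apply le_antisymm
  · intro g hg
    obtain ⟨x, hx, y, hy, rfl⟩ := hfac g hg
    exact Subgroup.mul_mem_sup hx hy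
  · exact sup_le hPN hKN

-- [k1]
theorem isThreeCycle_of_centralizer {α : Type*} [Fintype α] [DecidableEq α] (z : Perm α) (hz : orderOf z = 3)
    (K : Subgroup (Perm α)) (k : ℕ) (hK : Nat.card K = 2 ^ k) (hc : ∀ y ∈ K, y * z = z * y)
    (hk : Fintype.card α < 6 ∨ padicValNat 2 (Fintype.card α - 4).factorial < k) : z.IsThreeCycle := by
  have : Fact (Nat.Prime 2) := ⟨Nat.prime_two⟩
  obtain ⟨t, ht⟩ := Equiv.Perm.cycleType_prime_order (σ := z) (by rw [hz]; exact Nat.prime_three)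
  rw [hz] at ht
  have hsum : z.cycleType.sum = 3 * (t + 1) := by
    rw [ht, Multiset.sum_replicate, smul_eq_mul, mul_comm]
  have hle : 3 * (t + 1) ≤ Fintype.card α := by
    rw [← hsum, Equiv.Perm.sum_cycleType]
    exact Finset.card_le_univ _
  rcases Nat.eq_zero_or_pos t with rfl | htpos
  · rw [Equiv.Perm.IsThreeCycle, ht]; rfl
  exfalso
  have hcard := Equiv.Perm.nat_card_centralizer z
  rw [hsum] at hcard
  have hprod : z.cycleType.prod = 3 ^ (t + 1) := by
    rw [ht, Multiset.prod_replicate]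
  have hfin : z.cycleType.toFinset = {3} := by
    rw [ht, Multiset.toFinset_replicate]; simp
  rw [hprod, hfin, Finset.prod_singleton, ht, Multiset.count_replicate_self] at hcard
  have hKle : K ≤ Subgroup.centralizer {z} := by
    intro y hy
    rw [Subgroup.mem_centralizer_singleton_iff]
    exact hc y hy
  have hdvd : 2 ^ k ∣ (Fintype.card α - 3 * (t + 1)).factorial * 3 ^ (t + 1) * (t + 1).factorial := by
    rw [← hK, ← hcard]
    exact Subgroup.card_dvd_of_le hKle
  have hdvd2 : 2 ^ k ∣ (Fintype.card α - 3 * (t + 1)).factorial * (t + 1).factorial := by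
    have h1 : 2 ^ k ∣ 3 ^ (t + 1) * ((Fintype.card α - 3 * (t + 1)).factorial * (t + 1).factorial) := by
      convert hdvd using 1; ring
    exact Nat.Coprime.dvd_of_dvd_mul_left (Nat.Coprime.pow _ _ (by norm_num)) h1
  have hdvd3 : (Fintype.card α - 3 * (t + 1)).factorial * (t + 1).factorial ∣
      (Fintype.card α - 4).factorial := by
    refine (Nat.factorial_mul_factorial_dvd_factorial_add _ _).trans ?_
    apply Nat.factorial_dvd_factorial
    omega
  have h4 : 2 ^ k ∣ (Fintype.card α - 4).factorial := hdvd2.trans hdvd3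
  have h5 : k ≤ padicValNat 2 (Fintype.card α - 4).factorial :=
    (padicValNat_dvd_iff_le (Nat.factorial_ne_zero _)).mp h4
  rcases hk with hk | hk <;> omega

-- [k2]
theorem fixes_support {α : Type*} [Fintype α] [DecidableEq α] (z : Perm α) (hz : z.IsThreeCycle)
    (y : Perm α) (k : ℕ) (hy : y ^ 2 ^ k = 1) (hc : y * z = z * y) : ∀ x ∈ z.support, y x = x := by
  intro x hx
  rw [Equiv.Perm.mem_support] at hx
  have hcom : Commute y z := hc
  have hyx : z (y x) ≠ y x := by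
    intro h
    apply hx
    have h1 : y (z x) = y x := by
      have := congrArg (fun f : Perm α => f x) hc
      simp only [Equiv.Perm.mul_apply] at this
      rw [this, h]
    exact y.injective h1
  obtain ⟨i, hi⟩ := hz.isCycle.exists_pow_eq hx hyx
  have key : ∀ j : ℕ, (y ^ j) x = (z ^ (i * j)) x := by
    intro j
    induction j with
    | zero => simp
    | succ j ih =>
      rw [pow_succ', Equiv.Perm.mul_apply, ih]
      have h1 : Commute y (z ^ (i * j)) := hcom.pow_right _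
      have h2 : y ((z ^ (i * j)) x) = (z ^ (i * j)) (y x) := by
        have := congrArg (fun f : Perm α => f x) h1.eq
        simpa only [Equiv.Perm.mul_apply] using this
      rw [h2, ← hi, ← Equiv.Perm.mul_apply, ← pow_add, Nat.mul_succ]
  have h1 := key (2 ^ k)
  rw [hy, Equiv.Perm.one_apply] at h1
  have h2 : z ^ (i * 2 ^ k) = 1 := (hz.isCycle.pow_eq_one_iff' hx).mpr h1.symm
  have h3 : 3 ∣ i * 2 ^ k := by
    rw [← hz.orderOf]; exact orderOf_dvd_of_pow_eq_one h2
  have h4 : 3 ∣ i := Nat.Coprime.dvd_of_dvd_mul_right (Nat.Coprime.pow_right k (by norm_num)) h3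
  have h5 : z ^ i = 1 := by
    rw [← hz.orderOf] at h4
    exact orderOf_dvd_iff_pow_eq_one.mp h4
  rw [← hi, h5, Equiv.Perm.one_apply]

-- [k5]
theorem struct_perm {α : Type*} [Fintype α] [DecidableEq α] (N : Subgroup (Perm α)) (hN : Group.IsNilpotent N)
    (k : ℕ) (hc : Nat.card N = 3 * 2 ^ k)
    (hk : Fintype.card α < 6 ∨ padicValNat 2 (Fintype.card α - 4).factorial < k) :
    ∃ (z : Perm α) (K : Subgroup (Perm α)), z.IsThreeCycle ∧ Nat.card K = 2 ^ k ∧ K ≤ fixer z.support ∧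
      N = Subgroup.zpowers z ⊔ K := by
  obtain ⟨z, K, hz, hK, hcomm, hNe⟩ := struct_three N hN k hc
  have h3 := isThreeCycle_of_centralizer z hz K k hK hcomm hk
  refine ⟨z, K, h3, hK, ?_, hNe⟩
  intro y hy
  rw [mem_fixer]
  apply fixes_support z h3 y k _ (hcomm y hy)
  have h1 : (⟨y, hy⟩ : K) ^ Nat.card K = 1 := pow_card_eq_one'
  rw [hK] at h1
  have := congrArg Subtype.val h1
  simpa using this

-- [sylconj]
theorem sylow_conj_in {G : Type*} [Group G] (F : Subgroup G) [Finite F] (p : ℕ) [Fact p.Prime]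
    (K₁ K₂ : Subgroup G) (h₁ : K₁ ≤ F) (h₂ : K₂ ≤ F)
    (c₁ : Nat.card K₁ = p ^ padicValNat p (Nat.card F)) (c₂ : Nat.card K₂ = p ^ padicValNat p (Nat.card F)) :
    ∃ h ∈ F, K₂ = K₁.map (MulAut.conj h).toMonoidHom := by
  have e₁ : Nat.card (K₁.subgroupOf F) = p ^ (Nat.card F).factorization p := by
    rw [Nat.card_congr (Subgroup.subgroupOfEquivOfLe h₁).toEquiv, c₁, Nat.factorization_def _ Fact.out]
  have e₂ : Nat.card (K₂.subgroupOf F) = p ^ (Nat.card F).factorization p := by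
    rw [Nat.card_congr (Subgroup.subgroupOfEquivOfLe h₂).toEquiv, c₂, Nat.factorization_def _ Fact.out]
  obtain ⟨g, hg⟩ := MulAction.exists_smul_eq F (Sylow.ofCard _ e₁) (Sylow.ofCard _ e₂)
  have hg' : MulAut.conj g • (K₁.subgroupOf F) = K₂.subgroupOf F := by
    have := congrArg (fun P : Sylow p F => (P : Subgroup F)) hg
    simpa [Sylow.coe_subgroup_smul] using this
  refine ⟨g, g.2, ?_⟩
  ext x
  constructor
  · intro hx
    have hxF : x ∈ F := h₂ hx
    have h1 : (⟨x, hxF⟩ : F) ∈ K₂.subgroupOf F := by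
      rw [Subgroup.mem_subgroupOf]; exact hx
    rw [← hg', Subgroup.mem_pointwise_smul_iff_inv_smul_mem] at h1
    rw [Subgroup.mem_subgroupOf] at h1
    refine ⟨_, h1, ?_⟩
    simp [MulAut.smul_def, MulAut.conj_apply, mul_assoc]
  · rintro ⟨y, hy, rfl⟩
    have hyF : y ∈ F := h₁ hy
    have h1 : MulAut.conj g • (⟨y, hyF⟩ : F) ∈ MulAut.conj g • (K₁.subgroupOf F) :=
      Subgroup.smul_mem_pointwise_smul _ _ _ (by rw [Subgroup.mem_subgroupOf]; exact hy)
    rw [hg', Subgroup.mem_subgroupOf] at h1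
    simpa [MulAut.smul_def, MulAut.conj_apply] using h1

-- [k6]
theorem conj_generic {α : Type*} [Fintype α] [DecidableEq α] (G₀ : Subgroup (Perm α)) (z₁ z₂ : Perm α)
    (K₁ K₂ : Subgroup (Perm α)) (g : Perm α) (hg : g ∈ G₀) (hgz : g * z₁ * g⁻¹ = z₂)
    (hK₁ : K₁ ≤ fixer z₁.support ⊓ G₀) (hK₂ : K₂ ≤ fixer z₂.support ⊓ G₀)
    (c₁ : Nat.card K₁ = 2 ^ padicValNat 2 (Nat.card (fixer z₂.support ⊓ G₀ : Subgroup (Perm α))))
    (c₂ : Nat.card K₂ = 2 ^ padicValNat 2 (Nat.card (fixer z₂.support ⊓ G₀ : Subgroup (Perm α)))) :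
    ∃ g' ∈ G₀, Subgroup.zpowers z₂ ⊔ K₂ = (Subgroup.zpowers z₁ ⊔ K₁).map (MulAut.conj g').toMonoidHom := by
  have : Fact (Nat.Prime 2) := ⟨Nat.prime_two⟩
  set K₁' : Subgroup (Perm α) := K₁.map (MulAut.conj g).toMonoidHom with hK₁'
  have hle : K₁' ≤ fixer z₂.support ⊓ G₀ := by
    rintro _ ⟨y, hy, rfl⟩
    have hy' := hK₁ hy
    rw [Subgroup.mem_inf] at hy' ⊢
    constructor
    · rw [mem_fixer]
      intro x hx
      rw [← hgz, Equiv.Perm.support_conj, Finset.mem_map] at hx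
      obtain ⟨w, hw, rfl⟩ := hx
      have := (mem_fixer.mp hy'.1) w hw
      simp [MulAut.conj_apply, this]
    · simp only [MulEquiv.coe_toMonoidHom, MulAut.conj_apply]
      exact G₀.mul_mem (G₀.mul_mem hg hy'.2) (G₀.inv_mem hg)
  have hcard : Nat.card K₁' = 2 ^ padicValNat 2 (Nat.card (fixer z₂.support ⊓ G₀ : Subgroup (Perm α))) := by
    rw [hK₁', Subgroup.card_map_of_injective (MulAut.conj g).injective, c₁]
  obtain ⟨h, hh, hK⟩ := sylow_conj_in (fixer z₂.support ⊓ G₀) 2 K₁' K₂ hle hK₂ hcard c₂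
  rw [Subgroup.mem_inf] at hh
  have hcomm : h * z₂ * h⁻¹ = z₂ := by
    have hd : Equiv.Perm.Disjoint h z₂ := by
      intro x
      by_cases hx : x ∈ z₂.support
      · left; exact (mem_fixer.mp hh.1) x hx
      · right; exact Equiv.Perm.notMem_support.mp hx
    rw [hd.commute.eq, mul_inv_cancel_right]
  refine ⟨h * g, G₀.mul_mem hh.2 hg, ?_⟩
  rw [Subgroup.map_sup, MonoidHom.map_zpowers]
  congr 1
  · congr 1
    simp only [MulEquiv.coe_toMonoidHom, MulAut.conj_apply, mul_inv_rev]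
    rw [← hcomm, ← hgz]
    simp only [mul_assoc]
  · rw [hK, hK₁', Subgroup.map_map]
    congr 1

end Cfsg.Agent.Lib.Helper67NilStruct
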