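import Mathlib
import Cfsg.Agent.Lib.Helper98NilDefs

set_option autoImplicit false

namespace Cfsg.Agent.Lib.Helper98NilNumA
open Cfsg.Agent.Lib.Helper98NilDefs

theorem f2_pos (n : ℕ) : 1 ≤ f2 n := Nat.one_le_two_pow

theorem f2_mul_le (a b : ℕ) : f2 a * f2 b ≤ f2 (a + b) := by
  unfold f2
  rw [← pow_add]
  apply Nat.pow_le_pow_right (by norm_num)
  rw [← padicValNat_dvd_iff_le (Nat.factorial_ne_zero _), pow_add]
  exact (Nat.mul_dvd_mul pow_padicValNat_dvd pow_padicValNat_dvd).trans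
    (Nat.factorial_mul_factorial_dvd_factorial_add a b)

theorem f2_succ (n : ℕ) : f2 (n + 1) = f2 n * 2 ^ padicValNat 2 (n + 1) := by
  unfold f2
  rw [Nat.factorial_succ, padicValNat.mul (Nat.succ_ne_zero n) (Nat.factorial_ne_zero n), pow_add, mul_comm]

theorem f2_mono {a b : ℕ} (h : a ≤ b) : f2 a ≤ f2 b := by
  obtain ⟨c, rfl⟩ := Nat.exists_eq_add_of_le h
  calc f2 a = f2 a * 1 := (mul_one _).symm
    _ ≤ f2 a * f2 c := Nat.mul_le_mul_left _ (f2_pos c)
    _ ≤ f2 (a + c) := f2_mul_le a c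

theorem f2_two_mul (k : ℕ) : f2 (2 * k) = f2 k * 2 ^ k := by
  unfold f2
  rw [padicValNat_factorial_mul, pow_add]

theorem f2_two_mul_add_one (k : ℕ) : f2 (2 * k + 1) = f2 k * 2 ^ k := by
  rw [← f2_two_mul]
  unfold f2
  rw [padicValNat_factorial_mul_add k (by norm_num : 1 < 2)]

theorem f2_zero : f2 0 = 1 := by simp [f2]
theorem f2_one : f2 1 = 1 := by simp [f2]

theorem f2_table : ∀ n < 24, f2 n = [1, 1, 2, 2, 8, 8, 16, 16, 128, 128, 256, 256, 1024, 1024, 2048, 2048,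
    32768, 32768, 65536, 65536, 262144, 262144, 524288, 524288].getD n 0 := by
  have h2 : f2 2 = 2 := by rw [show 2 = 2 * 1 from rfl, f2_two_mul, f2_one]; norm_num
  have h3 : f2 3 = 2 := by rw [show 3 = 2 * 1 + 1 from rfl, f2_two_mul_add_one, f2_one]; norm_num
  have h4 : f2 4 = 8 := by rw [show 4 = 2 * 2 from rfl, f2_two_mul, h2]; norm_num
  have h5 : f2 5 = 8 := by rw [show 5 = 2 * 2 + 1 from rfl, f2_two_mul_add_one, h2]; norm_num
  have h6 : f2 6 = 16 := by rw [show 6 = 2 * 3 from rfl, f2_two_mul, h3]; norm_num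
  have h7 : f2 7 = 16 := by rw [show 7 = 2 * 3 + 1 from rfl, f2_two_mul_add_one, h3]; norm_num
  have h8 : f2 8 = 128 := by rw [show 8 = 2 * 4 from rfl, f2_two_mul, h4]; norm_num
  have h9 : f2 9 = 128 := by rw [show 9 = 2 * 4 + 1 from rfl, f2_two_mul_add_one, h4]; norm_num
  have h10 : f2 10 = 256 := by rw [show 10 = 2 * 5 from rfl, f2_two_mul, h5]; norm_num
  have h11 : f2 11 = 256 := by rw [show 11 = 2 * 5 + 1 from rfl, f2_two_mul_add_one, h5]; norm_num
  have h12 : f2 12 = 1024 := by rw [show 12 = 2 * 6 from rfl, f2_two_mul, h6]; norm_num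
  have h13 : f2 13 = 1024 := by rw [show 13 = 2 * 6 + 1 from rfl, f2_two_mul_add_one, h6]; norm_num
  have h14 : f2 14 = 2048 := by rw [show 14 = 2 * 7 from rfl, f2_two_mul, h7]; norm_num
  have h15 : f2 15 = 2048 := by rw [show 15 = 2 * 7 + 1 from rfl, f2_two_mul_add_one, h7]; norm_num
  have h16 : f2 16 = 32768 := by rw [show 16 = 2 * 8 from rfl, f2_two_mul, h8]; norm_num
  have h17 : f2 17 = 32768 := by rw [show 17 = 2 * 8 + 1 from rfl, f2_two_mul_add_one, h8]; norm_num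
  have h18 : f2 18 = 65536 := by rw [show 18 = 2 * 9 from rfl, f2_two_mul, h9]; norm_num
  have h19 : f2 19 = 65536 := by rw [show 19 = 2 * 9 + 1 from rfl, f2_two_mul_add_one, h9]; norm_num
  have h20 : f2 20 = 262144 := by rw [show 20 = 2 * 10 from rfl, f2_two_mul, h10]; norm_num
  have h21 : f2 21 = 262144 := by rw [show 21 = 2 * 10 + 1 from rfl, f2_two_mul_add_one, h10]; norm_num
  have h22 : f2 22 = 524288 := by rw [show 22 = 2 * 11 from rfl, f2_two_mul, h11]; norm_num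
  have h23 : f2 23 = 524288 := by rw [show 23 = 2 * 11 + 1 from rfl, f2_two_mul_add_one, h11]; norm_num
  intro n hn
  interval_cases n <;> simp [f2_zero, f2_one, *]

/-- `f2 (m+1) = f2 m` for even `m`. -/
theorem f2_succ_of_even {m : ℕ} (h : m % 2 = 0) : f2 (m + 1) = f2 m := by
  obtain ⟨k, rfl⟩ : ∃ k, m = 2 * k := ⟨m / 2, by omega⟩
  rw [f2_two_mul_add_one, f2_two_mul]

/-- `4 * f2 m ≤ f2 (m+1)` when `4 ∣ m + 1`. -/
theorem four_mul_f2_le {m : ℕ} (h : (m + 1) % 4 = 0) : 4 * f2 m ≤ f2 (m + 1) := by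
  rw [f2_succ, mul_comm]
  apply Nat.mul_le_mul_left
  have h4 : 2 ^ 2 ∣ m + 1 := by norm_num; omega
  have := (padicValNat_dvd_iff_le (p := 2) (Nat.succ_ne_zero m)).mp h4
  calc 4 = 2 ^ 2 := by norm_num
    _ ≤ _ := Nat.pow_le_pow_right (by norm_num) this

/-- `f2 (m+3) = 2 * f2 m` when `4 ∣ m`. -/
theorem f2_add_three {m : ℕ} (h : m % 4 = 0) : f2 (m + 3) = 2 * f2 m := by
  obtain ⟨k, rfl⟩ : ∃ k, m = 4 * k := ⟨m / 4, by omega⟩
  rw [show 4 * k + 3 = 2 * (2 * k + 1) + 1 by ring, f2_two_mul_add_one, f2_two_mul_add_one,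
    show 4 * k = 2 * (2 * k) by ring, f2_two_mul, f2_two_mul]
  ring

theorem two_mul_B_of_mod {n : ℕ} (hn : n % 4 = 3) : 2 * B n = 3 * f2 n := by
  obtain ⟨m, rfl⟩ : ∃ m, n = m + 3 := ⟨n - 3, by omega⟩
  rw [B, if_pos hn, Nat.add_sub_cancel, f2_add_three (by omega)]
  ring

theorem f2_le_B (n : ℕ) : f2 n ≤ B n := by
  by_cases hn : n % 4 = 3
  · have := two_mul_B_of_mod hn
    omega
  · rw [B, if_neg hn]

theorem B_add_three {m : ℕ} (h : m % 4 = 0) : B (m + 3) = 3 * f2 m := by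
  rw [B, if_pos (by omega), Nat.add_sub_cancel]

theorem B_mul_le_aux (a' b : ℕ) (ha : a' % 4 = 0) (hb : b % 4 ≠ 3) : 3 * f2 a' * f2 b ≤ B (a' + 3 + b) := by
  have h0 : f2 a' * f2 b ≤ f2 (a' + b) := f2_mul_le a' b
  have hcases : b % 4 = 0 ∨ b % 4 = 1 ∨ b % 4 = 2 := by omega
  rcases hcases with hb0 | hb1 | hb2
  · rw [show a' + 3 + b = (a' + b) + 3 by ring, B_add_three (by omega)]
    nlinarith
  · have h1 : 4 * f2 (a' + b + 2) ≤ f2 (a' + b + 2 + 1) := four_mul_f2_le (by omega)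
    have h2 : f2 (a' + b) ≤ f2 (a' + b + 2) := f2_mono (by omega)
    have h3 := f2_le_B (a' + 3 + b)
    rw [show a' + 3 + b = a' + b + 2 + 1 by ring] at h3 ⊢
    nlinarith
  · have h1 : 4 * f2 (a' + b + 1) ≤ f2 (a' + b + 1 + 1) := four_mul_f2_le (by omega)
    have h2 : f2 (a' + b) ≤ f2 (a' + b + 1) := f2_mono (by omega)
    have h4 : f2 (a' + b + 1 + 1) ≤ f2 (a' + b + 1 + 1 + 1) := f2_mono (by omega)
    have h3 := f2_le_B (a' + 3 + b)
    rw [show a' + 3 + b = a' + b + 1 + 1 + 1 by ring] at h3 ⊢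
    nlinarith

theorem B_mul_le (a b : ℕ) : B a * B b ≤ B (a + b) := by
  by_cases ha : a % 4 = 3
  · obtain ⟨a', rfl⟩ : ∃ m, a = m + 3 := ⟨a - 3, by omega⟩
    by_cases hb : b % 4 = 3
    · obtain ⟨b', rfl⟩ : ∃ m, b = m + 3 := ⟨b - 3, by omega⟩
      rw [B_add_three (by omega), B_add_three (by omega)]
      have h0 : f2 a' * f2 b' ≤ f2 (a' + b') := f2_mul_le a' b'
      have h1 : f2 (a' + b') * f2 6 ≤ f2 (a' + b' + 6) := f2_mul_le _ _
      have h6 : f2 6 = 16 := by simpa using f2_table 6 (by norm_num)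
      have h3 := f2_le_B (a' + 3 + (b' + 3))
      rw [show a' + 3 + (b' + 3) = a' + b' + 6 by ring] at h3 ⊢
      rw [h6] at h1
      nlinarith
    · rw [B_add_three (by omega), B, if_neg hb]
      exact B_mul_le_aux a' b (by omega) hb
  · by_cases hb : b % 4 = 3
    · obtain ⟨b', rfl⟩ : ∃ m, b = m + 3 := ⟨b - 3, by omega⟩
      rw [B_add_three (by omega), B, if_neg ha, mul_comm, show a + (b' + 3) = b' + 3 + a by ring]
      exact B_mul_le_aux b' a (by omega) ha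
    · rw [B, if_neg ha, B, if_neg hb]
      exact (f2_mul_le a b).trans (f2_le_B _)

theorem E_bound : ∀ n, 16 ≤ n → 2 * 3 ^ ((n - 1) / 2) ≤ f2 n := by
  intro n
  induction n using Nat.strong_induction_on with
  | _ n ih =>
  intro hn
  by_cases h24 : n < 24
  · rw [f2_table n h24]
    interval_cases n <;> norm_num
  · obtain ⟨m, rfl⟩ : ∃ m, n = m + 8 := ⟨n - 8, by omega⟩
    have h1 := ih m (by omega) (by omega)
    have h2 : f2 m * f2 8 ≤ f2 (m + 8) := f2_mul_le _ _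
    have h8 : f2 8 = 128 := by simpa using f2_table 8 (by norm_num)
    rw [h8] at h2
    rw [show (m + 8 - 1) / 2 = (m - 1) / 2 + 4 by omega, pow_add]
    nlinarith

theorem val_add_two_le (n : ℕ) (hn : n % 4 = 3) (h7 : 7 ≤ n) :
    padicValNat 2 (n - 4).factorial + 2 ≤ padicValNat 2 (n - 3).factorial := by
  obtain ⟨m, rfl⟩ : ∃ m, n = m + 4 := ⟨n - 4, by omega⟩
  rw [Nat.add_sub_cancel, show m + 4 - 3 = m + 1 by omega, Nat.factorial_succ,
    padicValNat.mul (Nat.succ_ne_zero m) (Nat.factorial_ne_zero m)]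
  have h4 : 2 ^ 2 ∣ m + 1 := by norm_num; omega
  have := (padicValNat_dvd_iff_le (p := 2) (Nat.succ_ne_zero m)).mp h4
  omega

end Cfsg.Agent.Lib.Helper98NilNumA
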