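import Mathlib
import Cfsg.Agent.Lib.Helper98NilDefs
import Cfsg.Agent.Lib.Helper98NilNumA
import Cfsg.Agent.Lib.Helper67NilStruct

set_option autoImplicit false

/-! Project 98, pieces k3, conj_sym, conj_alt. -/

namespace Cfsg.Agent.Lib.Helper67NilConj
open Cfsg.Agent.Lib.Helper98NilDefs Equiv
open Cfsg.Agent.Lib.Helper67NilStruct
open Cfsg.Agent.Lib.Helper98NilNumA

-- [k3]
theorem card_fixer {α : Type*} [Fintype α] [DecidableEq α] (S : Finset α) :
    Nat.card (fixer S) = (Fintype.card α - S.card).factorial := by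
  have e1 : Perm {x // x ∉ S} ≃ {f : Perm α // ∀ a, ¬ (a ∉ S) → f a = a} :=
    Equiv.Perm.subtypeEquivSubtypePerm (fun x => x ∉ S)
  have e2 : {f : Perm α // ∀ a, ¬ (a ∉ S) → f a = a} ≃ fixer S :=
    Equiv.subtypeEquivRight (fun f => by
      rw [mem_fixer]
      constructor
      · intro h x hx; exact h x (not_not.mpr hx)
      · intro h x hx; exact h x (not_not.mp hx))
  rw [← Nat.card_congr (e1.trans e2), Nat.card_eq_fintype_card, Fintype.card_perm,
    Fintype.card_subtype_compl, Fintype.card_coe]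

theorem two_mul_card_fixer_alt {α : Type*} [Fintype α] [DecidableEq α] (S : Finset α)
    (h : S.card + 2 ≤ Fintype.card α) :
    2 * Nat.card (fixer S ⊓ alternatingGroup α : Subgroup (Perm α)) = (Fintype.card α - S.card).factorial := by
  rw [← card_fixer S]
  have hnt : Nontrivial α := by
    rw [← Fintype.one_lt_card_iff_nontrivial]; omega
  have h1 : (⊥ : Subgroup (Perm α)).relIndex (alternatingGroup α ⊓ fixer S) *
      (alternatingGroup α ⊓ fixer S).relIndex (fixer S) = (⊥ : Subgroup (Perm α)).relIndex (fixer S) :=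
    Subgroup.relIndex_mul_relIndex _ _ _ bot_le inf_le_right
  rw [Subgroup.relIndex_bot_left, Subgroup.relIndex_bot_left, Subgroup.inf_relIndex_right] at h1
  have h2 : (alternatingGroup α).relIndex (fixer S) = 2 := by
    have hd : (alternatingGroup α).relIndex (fixer S) ∣ 2 := by
      rw [← alternatingGroup.index_eq_two (α := α)]
      exact Subgroup.relIndex_dvd_index_of_normal _ _
    rcases (Nat.Prime.eq_one_or_self_of_dvd Nat.prime_two _ hd) with h3 | h3
    · exfalso
      rw [Subgroup.relIndex_eq_one] at h3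
      have hc : 1 < (Sᶜ).card := by
        rw [Finset.card_compl]; omega
      obtain ⟨a, ha, b, hb, hab⟩ := Finset.one_lt_card.mp hc
      rw [Finset.mem_compl] at ha hb
      have hsw : Equiv.swap a b ∈ fixer S := by
        rw [mem_fixer]
        intro x hx
        apply Equiv.swap_apply_of_ne_of_ne
        · rintro rfl; exact ha hx
        · rintro rfl; exact hb hx
      have := h3 hsw
      rw [Equiv.Perm.mem_alternatingGroup, Equiv.Perm.sign_swap hab] at this
      exact absurd this (by decide)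
    · exact h3
  rw [h2] at h1
  rw [inf_comm, ← h1, mul_comm]

-- [conj_sym]
theorem conj_sym (n : ℕ) (hn : n % 4 = 3) (N₁ N₂ : Subgroup (Perm (Fin n)))
    (h₁ : Group.IsNilpotent N₁) (h₂ : Group.IsNilpotent N₂)
    (c₁ : Nat.card N₁ = 3 * f2 (n - 3)) (c₂ : Nat.card N₂ = 3 * f2 (n - 3)) :
    ∃ g : Perm (Fin n), N₂ = N₁.map (MulAut.conj g).toMonoidHom := by
  have hk : Fintype.card (Fin n) < 6 ∨
      padicValNat 2 (Fintype.card (Fin n) - 4).factorial < padicValNat 2 (n - 3).factorial := by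
    rw [Fintype.card_fin]
    by_cases h7 : 7 ≤ n
    · right
      have := val_add_two_le n hn h7
      omega
    · left; omega
  obtain ⟨z₁, K₁, hz₁, hK₁, hf₁, e₁⟩ := struct_perm N₁ h₁ _ c₁ hk
  obtain ⟨z₂, K₂, hz₂, hK₂, hf₂, e₂⟩ := struct_perm N₂ h₂ _ c₂ hk
  have hconj : IsConj z₁ z₂ := by
    rw [Equiv.Perm.isConj_iff_cycleType_eq, hz₁, hz₂]
  obtain ⟨g, hg⟩ := isConj_iff.mp hconj
  have hcard : Nat.card (fixer z₂.support ⊓ ⊤ : Subgroup (Perm (Fin n))) = (n - 3).factorial := by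
    rw [inf_top_eq, card_fixer, hz₂.card_support, Fintype.card_fin]
  obtain ⟨g', -, hg'⟩ := conj_generic ⊤ z₁ z₂ K₁ K₂ g (Subgroup.mem_top _) hg
    (le_inf hf₁ le_top) (le_inf hf₂ le_top) (by rw [hcard, hK₁]) (by rw [hcard, hK₂])
  exact ⟨g', by rw [e₁, e₂, hg']⟩

-- [conj_alt]
theorem conj_alt (n : ℕ) (hn : n % 4 = 3) (h7 : 7 ≤ n) (N₁ N₂ : Subgroup (alternatingGroup (Fin n)))
    (h₁ : Group.IsNilpotent N₁) (h₂ : Group.IsNilpotent N₂)
    (c₁ : 2 * Nat.card N₁ = 3 * f2 (n - 3)) (c₂ : 2 * Nat.card N₂ = 3 * f2 (n - 3)) :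
    ∃ g : alternatingGroup (Fin n), N₂ = N₁.map (MulAut.conj g).toMonoidHom := by
  have : Fact (Nat.Prime 2) := ⟨Nat.prime_two⟩
  have hinj : Function.Injective (alternatingGroup (Fin n)).subtype := Subgroup.subtype_injective _
  have hval := val_add_two_le n hn h7
  obtain ⟨k, hk⟩ : ∃ k, padicValNat 2 (n - 3).factorial = k + 1 :=
    ⟨padicValNat 2 (n - 3).factorial - 1, by omega⟩
  have hf2 : f2 (n - 3) = 2 * 2 ^ k := by
    rw [f2, hk, pow_succ, mul_comm]
  have key : ∀ N : Subgroup (alternatingGroup (Fin n)), Group.IsNilpotent N →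
      2 * Nat.card N = 3 * f2 (n - 3) →
      ∃ (z : Perm (Fin n)) (K : Subgroup (Perm (Fin n))), z.IsThreeCycle ∧ Nat.card K = 2 ^ k ∧
        K ≤ fixer z.support ⊓ alternatingGroup (Fin n) ∧
        N.map (alternatingGroup (Fin n)).subtype = Subgroup.zpowers z ⊔ K := by
    intro N hN hc
    have hnil : Group.IsNilpotent (N.map (alternatingGroup (Fin n)).subtype) :=
      Group.nilpotent_of_mulEquiv (N.equivMapOfInjective _ hinj)
    have hcard : Nat.card (N.map (alternatingGroup (Fin n)).subtype) = 3 * 2 ^ k := by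
      rw [Subgroup.card_map_of_injective hinj]
      rw [hf2] at hc
      have : 2 * Nat.card N = 2 * (3 * 2 ^ k) := by rw [hc]; ring
      exact Nat.eq_of_mul_eq_mul_left (by norm_num) this
    obtain ⟨z, K, hz, hK, hf, e⟩ := struct_perm _ hnil k hcard
      (by right; rw [Fintype.card_fin]; omega)
    refine ⟨z, K, hz, hK, le_inf hf ?_, e⟩
    calc K ≤ Subgroup.zpowers z ⊔ K := le_sup_right
      _ = N.map (alternatingGroup (Fin n)).subtype := e.symm
      _ ≤ alternatingGroup (Fin n) := Subgroup.map_subtype_le N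
  obtain ⟨z₁, K₁, hz₁, hK₁, hf₁, e₁⟩ := key N₁ h₁ c₁
  obtain ⟨z₂, K₂, hz₂, hK₂, hf₂, e₂⟩ := key N₂ h₂ c₂
  have hconj : IsConj z₁ z₂ := by
    rw [Equiv.Perm.isConj_iff_cycleType_eq, hz₁, hz₂]
  have hconj' : IsConj (⟨z₁, hz₁.mem_alternatingGroup⟩ : alternatingGroup (Fin n))
      ⟨z₂, hz₂.mem_alternatingGroup⟩ := by
    apply alternatingGroup.isConj_of hconj
    simp only [hz₁.card_support, Fintype.card_fin]
    omega
  obtain ⟨g, hg⟩ := isConj_iff.mp hconj'
  have hg0 : (g : Perm (Fin n)) * z₁ * (g : Perm (Fin n))⁻¹ = z₂ := by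
    have := congrArg Subtype.val hg
    simpa using this
  have hcard : padicValNat 2 (Nat.card (fixer z₂.support ⊓ alternatingGroup (Fin n) :
      Subgroup (Perm (Fin n)))) = k := by
    have h2 := two_mul_card_fixer_alt (α := Fin n) z₂.support
      (by rw [hz₂.card_support, Fintype.card_fin]; omega)
    rw [hz₂.card_support, Fintype.card_fin] at h2
    have h3 := congrArg (padicValNat 2) h2
    rw [padicValNat.mul (by norm_num) Nat.card_pos.ne', hk, padicValNat.self (by norm_num)] at h3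
    omega
  obtain ⟨g', hgA, hg'⟩ := conj_generic (alternatingGroup (Fin n)) z₁ z₂ K₁ K₂ g g.2 hg0
    hf₁ hf₂ (by rw [hcard, hK₁]) (by rw [hcard, hK₂])
  refine ⟨⟨g', hgA⟩, ?_⟩
  apply Subgroup.map_injective hinj
  rw [e₂, hg', ← e₁, Subgroup.map_map, Subgroup.map_map]
  congr 1

end Cfsg.Agent.Lib.Helper67NilConj
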