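import Mathlib

set_option autoImplicit false

/-! Project 98, pieces exist_sym, exist_alt. -/

namespace Cfsg.Agent.Lib.Helper67NilExist
open Equiv

theorem exist_gen {A B G : Type*} [Group A] [Group B] [Group G] [Finite A] (φ : A × B →* G)
    (hφ : Function.Injective φ) (P : Sylow 2 A) (c : B) (hc : orderOf c = 3) :
    ∃ M : Subgroup G, Group.IsNilpotent M ∧ Nat.card M = 3 * Nat.card P ∧
      Nonempty (M ≃* (↥(P : Subgroup A) × Multiplicative (ZMod 3))) := by
  have h2 : Fact (Nat.Prime 2) := ⟨Nat.prime_two⟩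
  have h3 : Fact (Nat.Prime 3) := ⟨Nat.prime_three⟩
  have e0 : Subgroup.zpowers c ≃* Multiplicative (ZMod 3) :=
    mulEquivOfPrimeCardEq (p := 3) (by rw [Nat.card_zpowers, hc])
      (by rw [Nat.card_eq_fintype_card, Fintype.card_multiplicative, ZMod.card])
  have e : ((P : Subgroup A).prod (Subgroup.zpowers c)).map φ ≃*
      (↥(P : Subgroup A) × Multiplicative (ZMod 3)) :=
    (((P : Subgroup A).prod (Subgroup.zpowers c)).equivMapOfInjective φ hφ).symm.trans
      ((Subgroup.prodEquiv _ _).trans (MulEquiv.prodCongr (MulEquiv.refl _) e0))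
  have hP : Group.IsNilpotent (P : Subgroup A) := P.isPGroup'.isNilpotent
  refine ⟨_, Group.nilpotent_of_mulEquiv e.symm, ?_, ⟨e⟩⟩
  rw [Nat.card_congr e.toEquiv, Nat.card_prod, mul_comm]
  congr 1
  rw [Nat.card_eq_fintype_card, Fintype.card_multiplicative, ZMod.card]

/-- The embedding `Perm (Fin m) × Perm (Fin 3) → Perm (Fin n)`. -/
noncomputable def emb (n : ℕ) (hn : 3 ≤ n) : Perm (Fin (n - 3)) × Perm (Fin 3) →* Perm (Fin n) :=
  ((finSumFinEquiv.trans (finCongr (by omega : n - 3 + 3 = n))).permCongrHom).toMonoidHom.comp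
    (Equiv.Perm.sumCongrHom (Fin (n - 3)) (Fin 3))

theorem emb_injective (n : ℕ) (hn : 3 ≤ n) : Function.Injective (emb n hn) := by
  unfold emb
  rw [MonoidHom.coe_comp]
  exact (MulEquiv.injective _).comp Equiv.Perm.sumCongrHom_injective

theorem sign_emb (n : ℕ) (hn : 3 ≤ n) (x : Perm (Fin (n - 3)) × Perm (Fin 3)) :
    Perm.sign (emb n hn x) = Perm.sign x.1 * Perm.sign x.2 := by
  unfold emb
  rw [MonoidHom.comp_apply]
  change Perm.sign ((finSumFinEquiv.trans (finCongr (by omega : n - 3 + 3 = n))).permCongr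
    (Equiv.Perm.sumCongr x.1 x.2)) = _
  rw [Equiv.Perm.sign_permCongr, Equiv.Perm.sign_sumCongr]

theorem orderOf_rot : orderOf (finRotate 3) = 3 := by
  have h3 : Fact (Nat.Prime 3) := ⟨Nat.prime_three⟩
  exact orderOf_eq_prime (by decide) (by decide)

-- [exist_sym]
theorem exist_sym (n : ℕ) (hn : 3 ≤ n) (P : Sylow 2 (Perm (Fin (n - 3)))) :
    ∃ M : Subgroup (Perm (Fin n)), Group.IsNilpotent M ∧ Nat.card M = 3 * Nat.card P ∧
      Nonempty (M ≃* (↥(P : Subgroup (Perm (Fin (n - 3)))) × Multiplicative (ZMod 3))) :=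
  exist_gen (emb n hn) (emb_injective n hn) P (finRotate 3) orderOf_rot

/-- The embedding of alternating groups. -/
noncomputable def embAlt (n : ℕ) (hn : 3 ≤ n) :
    alternatingGroup (Fin (n - 3)) × alternatingGroup (Fin 3) →* alternatingGroup (Fin n) :=
  ((emb n hn).comp (MonoidHom.prodMap (alternatingGroup (Fin (n - 3))).subtype
    (alternatingGroup (Fin 3)).subtype)).codRestrict (alternatingGroup (Fin n)) (by
      intro x
      rw [Equiv.Perm.mem_alternatingGroup, MonoidHom.comp_apply, sign_emb]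
      have h1 := Equiv.Perm.mem_alternatingGroup.mp x.1.2
      have h2 := Equiv.Perm.mem_alternatingGroup.mp x.2.2
      simp [h1, h2])

theorem embAlt_injective (n : ℕ) (hn : 3 ≤ n) : Function.Injective (embAlt n hn) := by
  intro x y hxy
  have h1 := congrArg Subtype.val hxy
  have h2 : emb n hn ((x.1 : Perm _), (x.2 : Perm _)) = emb n hn ((y.1 : Perm _), (y.2 : Perm _)) := h1
  have h3 := emb_injective n hn h2
  rw [Prod.mk.injEq] at h3
  exact Prod.ext (Subtype.ext h3.1) (Subtype.ext h3.2)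

-- [exist_alt]
theorem exist_alt (n : ℕ) (hn : 3 ≤ n) (P : Sylow 2 (alternatingGroup (Fin (n - 3)))) :
    ∃ M : Subgroup (alternatingGroup (Fin n)), Group.IsNilpotent M ∧ Nat.card M = 3 * Nat.card P ∧
      Nonempty (M ≃* (↥(P : Subgroup (alternatingGroup (Fin (n - 3)))) × Multiplicative (ZMod 3))) :=
  exist_gen (embAlt n hn) (embAlt_injective n hn) P
    (⟨finRotate 3, by rw [Equiv.Perm.mem_alternatingGroup]; decide⟩ : alternatingGroup (Fin 3)) (by rw [Subgroup.orderOf_mk, orderOf_rot])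

end Cfsg.Agent.Lib.Helper67NilExist
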