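import Mathlib
import Cfsg.Agent.Lib.Helper71ZaDefs
import Cfsg.Agent.Lib.Helper6DkT2

set_option autoImplicit false

namespace Cfsg.Agent.Lib.Helper68ZaDICKSON

open Cfsg.Agent.Lib.Helper71ZaDefs Subgroup
open Cfsg.Agent.Lib.Helper46SL2 Cfsg.Agent.Lib.Helper41Dk Cfsg.Agent.Lib.Helper6DkT

local notation "SL2" => Matrix.SpecialLinearGroup (Fin 2)

section fin
variable {F : Type*} [Field F] {D : Type*} [Group D]

/-- fixed-point-freeness of a homomorphism to `SL₂` -/
def FF (φ : D →* SL2 F) : Prop :=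
  ∀ d, d ≠ 1 → ∀ v : Fin 2 → F, (φ d).1.mulVec v = v → v = 0

theorem FF.inj {φ : D →* SL2 F} (hφ : FF φ) : Function.Injective φ := by
  rw [injective_iff_map_eq_one]
  intro d hd
  by_contra hne
  have := hφ d hne ![1, 0] (by rw [hd]; simp)
  have h0 := congrFun this 0
  simp at h0

theorem mulVec_e0 (y : SL2 F) : y.1.mulVec ![1, 0] = ![y 0 0, y 1 0] := by
  ext i
  fin_cases i <;> simp [Matrix.mulVec, dotProduct, Fin.sum_univ_two]

theorem mulVec_e1 (y : SL2 F) : y.1.mulVec ![0, 1] = ![y 0 1, y 1 1] := by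
  ext i
  fin_cases i <;> simp [Matrix.mulVec, dotProduct, Fin.sum_univ_two]

theorem FF.invol {φ : D →* SL2 F} (hφ : FF φ) {t : D} (ht : t ≠ 1) (ht2 : t * t = 1) : φ t = -1 := by
  have key : ∀ v : Fin 2 → F, (φ t).1.mulVec v + v = 0 := by
    intro v
    apply hφ t ht
    rw [Matrix.mulVec_add, Matrix.mulVec_mulVec]
    have : (φ t).1 * (φ t).1 = 1 := by
      have := congrArg (fun y : SL2 F => y.1) (map_mul φ t t)
      rw [ht2, map_one] at this
      simpa using this.symm
    rw [this, Matrix.one_mulVec, add_comm]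
  have h0 := key ![1, 0]
  have h1 := key ![0, 1]
  rw [mulVec_e0] at h0
  rw [mulVec_e1] at h1
  have h00 := congrFun h0 0
  have h10 := congrFun h0 1
  have h01 := congrFun h1 0
  have h11 := congrFun h1 1
  simp at h00 h10 h01 h11
  apply ext2 <;> simp only [Helper46SL2.neg_apply, one_00, one_01, one_10, one_11]
  · linear_combination h00
  · rw [h01]; simp
  · rw [h10]; simp
  · linear_combination h11

theorem FF.center_of_tr {φ : D →* SL2 F} (hφ : FF φ) (d : D) (h : tr (φ d) ^ 2 = 4) :
    φ d ∈ center (SL2 F) := by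
  have hd := det2 (φ d)
  have h2 : (tr (φ d) - 2) * (tr (φ d) + 2) = 0 := by linear_combination h
  rcases mul_eq_zero.mp h2 with h3 | h3
  · -- eigenvalue 1
    have hdet : ((φ d).1 - 1).det = 0 := by
      rw [Matrix.det_fin_two]
      simp only [Matrix.sub_apply, Matrix.one_apply_eq, Matrix.one_apply_ne (show (0 : Fin 2) ≠ 1 by decide),
        Matrix.one_apply_ne (show (1 : Fin 2) ≠ 0 by decide)]
      unfold tr at h3
      linear_combination hd - h3
    obtain ⟨v, hv0, hv⟩ := Matrix.exists_mulVec_eq_zero_iff.mpr hdet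
    rw [Matrix.sub_mulVec, Matrix.one_mulVec, sub_eq_zero] at hv
    by_cases hd1 : d = 1
    · rw [hd1, map_one]; exact one_mem _
    · exact absurd (hφ d hd1 v hv) hv0
  · have hdet : ((φ d).1 + 1).det = 0 := by
      rw [Matrix.det_fin_two]
      simp only [Matrix.add_apply, Matrix.one_apply_eq, Matrix.one_apply_ne (show (0 : Fin 2) ≠ 1 by decide),
        Matrix.one_apply_ne (show (1 : Fin 2) ≠ 0 by decide)]
      unfold tr at h3
      linear_combination hd + h3
    obtain ⟨v, hv0, hv⟩ := Matrix.exists_mulVec_eq_zero_iff.mpr hdet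
    rw [Matrix.add_mulVec, Matrix.one_mulVec] at hv
    have hv' : (φ d).1.mulVec v = -v := eq_neg_of_add_eq_zero_left hv
    have hv2 : (φ (d * d)).1.mulVec v = v := by
      rw [map_mul]
      show ((φ d).1 * (φ d).1).mulVec v = v
      rw [← Matrix.mulVec_mulVec, hv', Matrix.mulVec_neg, hv', neg_neg]
    by_cases hd1 : d = 1
    · rw [hd1, map_one]; exact one_mem _
    · by_cases hdd : d * d = 1
      · rw [hφ.invol hd1 hdd, mem_center_iff_eq]; right; rfl
      · exact absurd (hφ _ hdd v hv2) hv0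

/-- the group `G = φ(D) Z` -/
def GG (φ : D →* SL2 F) : Subgroup (SL2 F) := φ.range ⊔ center (SL2 F)

theorem center_le_GG (φ : D →* SL2 F) : center (SL2 F) ≤ GG φ := le_sup_right

theorem range_le_GG (φ : D →* SL2 F) : φ.range ≤ GG φ := le_sup_left

theorem mem_GG {φ : D →* SL2 F} {x : SL2 F} (hx : x ∈ GG φ) :
    ∃ d : D, ∃ z ∈ center (SL2 F), φ d * z = x := by
  unfold GG at hx
  rw [Subgroup.mem_sup_of_normal_right] at hx
  obtain ⟨_, ⟨d, rfl⟩, z, hz, h⟩ := hx
  exact ⟨d, z, hz, h⟩

theorem FF.ss {φ : D →* SL2 F} (hφ : FF φ) :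
    ∀ x ∈ GG φ, x ∉ center (SL2 F) → tr x ^ 2 ≠ 4 := by
  intro x hx hxc h4
  obtain ⟨d, z, hz, rfl⟩ := mem_GG hx
  apply hxc
  refine mul_mem (hφ.center_of_tr d ?_) hz
  rcases mem_center_iff_eq.mp hz with rfl | rfl
  · simpa using h4
  · have : φ d * -1 = -(φ d) := by
      apply ext2 <;> simp [mul_00, mul_01, mul_10, mul_11, Helper46SL2.neg_apply]
    rw [this, tr_neg] at h4
    linear_combination h4

theorem bin_of_comm (h : ∀ a b : D, a * b = b * a) : Bin D :=
  Or.inl ⟨⊤, Or.inl Subgroup.index_top, fun a _ b _ => h a b⟩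

/-- the projection to `PSL₂` -/
abbrev pr (F : Type*) [Field F] : SL2 F →* Matrix.ProjectiveSpecialLinearGroup (Fin 2) F :=
  QuotientGroup.mk' (center (SL2 F))

/-- the exotic outcomes -/
theorem FF.exotic [Finite D] {φ : D →* SL2 F} (hφ : FF φ) {T : Type*} [Group T] [Finite T]
    (hT : 2 ∣ Nat.card T) (e : (GG φ).map (pr F) ≃* T) :
    ∃ f : D →* T, Function.Surjective f ∧ Nat.card f.ker = 2 := by
  let g : D →* (GG φ).map (pr F) :=
    ((pr F).comp φ).codRestrict _ (fun d => ⟨φ d, range_le_GG φ ⟨d, rfl⟩, rfl⟩)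
  have hg : Function.Surjective g := by
    rintro ⟨_, x, hx, rfl⟩
    obtain ⟨d, z, hz, rfl⟩ := mem_GG hx
    refine ⟨d, Subtype.ext ?_⟩
    show pr F (φ d) = pr F (φ d * z)
    rw [map_mul]
    have : pr F z = 1 := (QuotientGroup.eq_one_iff z).mpr hz
    rw [this, mul_one]
  let f : D →* T := e.toMonoidHom.comp g
  have hf : Function.Surjective f := e.surjective.comp hg
  have hker : ∀ d, d ∈ f.ker ↔ φ d ∈ center (SL2 F) := by
    intro d
    rw [MonoidHom.mem_ker]
    show e (g d) = 1 ↔ _
    rw [MulEquiv.map_eq_one_iff]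
    constructor
    · intro h
      have := congrArg Subtype.val h
      exact (QuotientGroup.eq_one_iff (φ d)).mp this
    · intro h
      apply Subtype.ext
      exact (QuotientGroup.eq_one_iff (φ d)).mpr h
  refine ⟨f, hf, ?_⟩
  haveI : Fact (Nat.Prime 2) := ⟨Nat.prime_two⟩
  obtain ⟨s, hs⟩ := exists_prime_orderOf_dvd_card' 2 hT
  obtain ⟨d, rfl⟩ := hf s
  have h2 : 2 ∣ orderOf d := hs ▸ orderOf_map_dvd f d
  set t := d ^ (orderOf d / 2) with ht
  have hto : orderOf t = 2 := orderOf_pow_orderOf_div (orderOf_pos d).ne' h2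
  have ht1 : t ≠ 1 := by
    intro h
    rw [h, orderOf_one] at hto
    omega
  have htt : t * t = 1 := by
    rw [← pow_two, ← hto]; exact pow_orderOf_eq_one t
  have hφt : φ t = -1 := hφ.invol ht1 htt
  have htk : t ∈ f.ker := by
    rw [hker, hφt, mem_center_iff_eq]; right; rfl
  rw [Nat.card_eq_two_iff]
  refine ⟨1, ⟨t, htk⟩, ?_, ?_⟩
  · intro h
    exact ht1 (congrArg Subtype.val h).symm
  · ext ⟨y, hy⟩
    simp only [Set.mem_insert_iff, Set.mem_singleton_iff, Set.mem_univ, iff_true]
    rcases mem_center_iff_eq.mp ((hker y).mp hy) with h | h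
    · left
      apply Subtype.ext
      exact hφ.inj (by rw [h]; exact (map_one φ).symm)
    · right
      apply Subtype.ext
      exact hφ.inj (by rw [h, hφt])

theorem small_fin [Finite F] [Finite D] (φ : D →* SL2 F) (hφ : FF φ) : Bin D := by
  have hZ := center_le_GG φ
  have hmem : ∀ d, φ d ∈ GG φ := fun d => range_le_GG φ ⟨d, rfl⟩
  have hpre : pre ((GG φ).map (pr F)) = GG φ := by
    rw [pre, Subgroup.comap_map_eq, QuotientGroup.ker_mk', sup_eq_left.mpr hZ]
  rcases caseA hZ hφ.ss with h | ⟨x, hx, hxt, h⟩ | ⟨x, hx, hxt, h, -⟩ | ⟨hc, hNC⟩ | ⟨hc, hNC, -⟩ | h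
  · apply bin_of_comm
    intro a b
    apply hφ.inj
    rw [map_mul, map_mul]
    have ha : φ a ∈ center (SL2 F) := h ▸ hmem a
    exact (mem_center_iff.mp ha (φ b)).symm
  · apply bin_of_comm
    intro a b
    apply hφ.inj
    rw [map_mul, map_mul]
    have ha : φ a ∈ AA (GG φ) x := h ▸ hmem a
    have hb : φ b ∈ AA (GG φ) x := h ▸ hmem b
    have ha' : Commute (φ a) x := (mem_centralizer_singleton_iff.mp ha.1)
    have hb' : Commute (φ b) x := (mem_centralizer_singleton_iff.mp hb.1)
    exact ct_SL2 x (φ a) (φ b) (not_mem_center_of_tr hxt) ha' hb'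
  · left
    refine ⟨(centralizer {x}).comap φ, ?_, ?_⟩
    · obtain ⟨a, n, d⟩ := exists_SSd hZ hx hxt
      have h1 : (centralizer {x}).relIndex (GG φ) = n := by
        rw [← Subgroup.inf_relIndex_right]
        have h2 : Nat.card (AA (GG φ) x) * (AA (GG φ) x).relIndex (GG φ) = Nat.card (GG φ) := by
          have hle : AA (GG φ) x ≤ GG φ := inf_le_right
          have := ((AA (GG φ) x).subgroupOf (GG φ)).card_mul_index
          rwa [Nat.card_congr (Subgroup.subgroupOfEquivOfLe hle).toEquiv] at this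
        have h3 : Nat.card (GG φ) = ee F * (n * a) := by
          have := d.cardN
          rwa [← h] at this
        rw [d.cardA, h3] at h2
        have hpos : 0 < ee F * a := Nat.mul_pos ee_pos (by have := d.ha; omega)
        have h4 : ee F * a * (AA (GG φ) x).relIndex (GG φ) = ee F * a * n := by rw [h2]; ring
        exact Nat.eq_of_mul_eq_mul_left hpos h4
      have hn : n = 1 ∨ n = 2 := by
        rcases d.hn with ⟨h, -⟩ | ⟨h, -⟩
        · exact Or.inl h
        · exact Or.inr h
      rw [Subgroup.index_comap]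
      have h5 : (centralizer {x}).relIndex φ.range ≤ n := by
        rw [← h1]
        apply Subgroup.relIndex_le_of_le_right (range_le_GG φ)
        rw [h1]
        rcases hn with rfl | rfl <;> norm_num
      have h6 : (centralizer {x}).relIndex φ.range ≠ 0 := Subgroup.index_ne_zero_of_finite
      rcases hn with rfl | rfl <;> omega
    · intro a ha b hb
      apply hφ.inj
      rw [map_mul, map_mul]
      have ha' : Commute (φ a) x := (mem_centralizer_singleton_iff.mp (mem_comap.mp ha))
      have hb' : Commute (φ b) x := (mem_centralizer_singleton_iff.mp (mem_comap.mp hb))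
      exact ct_SL2 x (φ a) (φ b) (not_mem_center_of_tr hxt) ha' hb'
  · right; left
    obtain ⟨e⟩ := T3 ((GG φ).map (pr F)) (by rw [hpre]; exact hc) (by rw [hpre]; exact hNC)
    exact hφ.exotic (by
      rw [Nat.card_eq_fintype_card]; decide) e
  · right; right; left
    obtain ⟨e⟩ := T4 ((GG φ).map (pr F)) (by rw [hpre]; exact hc) (by rw [hpre]; exact hNC)
    exact hφ.exotic (by
      rw [Nat.card_eq_fintype_card, Fintype.card_perm, Fintype.card_fin]; decide) e
  · right; right; right
    obtain ⟨e⟩ := T5 ((GG φ).map (pr F)) (by rw [hpre]; exact h)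
    exact hφ.exotic (by
      rw [Nat.card_eq_fintype_card]; decide) e

end fin

/-! ## DICKSON : fixed-point-free subgroups of `SL₂` -/
theorem small_of_planar {p : ℕ} [Fact p.Prime] (hp : p ≠ 2) {D : Type*} [Group D] [Finite D]
    (φ : D →* Matrix.SpecialLinearGroup (Fin 2) (KK p))
    (hφ : ∀ d, d ≠ 1 → ∀ v : Fin 2 → KK p, (φ d).1.mulVec v = v → v = 0) : Bin D := by
  let S : Set (KK p) := Set.range (fun x : D × Fin 2 × Fin 2 => (φ x.1) x.2.1 x.2.2)
  haveI : Finite S := Set.finite_range _
  let F := IntermediateField.adjoin (ZMod p) S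
  haveI : FiniteDimensional (ZMod p) F :=
    IntermediateField.finiteDimensional_adjoin (fun x _ => Algebra.IsIntegral.isIntegral x)
  haveI : Finite F := Module.finite_of_finite (ZMod p)
  let j : SL2 F →* SL2 (KK p) := Matrix.SpecialLinearGroup.map (algebraMap F (KK p))
  have hj : Function.Injective j := map_inj _
  have hex : ∀ d, ∃ y, j y = φ d := by
    intro d
    let M : Matrix (Fin 2) (Fin 2) F :=
      Matrix.of fun a b => ⟨(φ d) a b, IntermediateField.subset_adjoin _ _ ⟨(d, a, b), rfl⟩⟩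
    have hM : M.map (algebraMap F (KK p)) = (φ d).1 := by
      ext a b; rfl
    have hdet : M.det = 1 := by
      apply (algebraMap F (KK p)).injective
      rw [RingHom.map_det, map_one]
      show (M.map (algebraMap F (KK p))).det = 1
      rw [hM]; exact (φ d).2
    exact ⟨⟨M, hdet⟩, Subtype.ext hM⟩
  choose f hf using hex
  let φ' : D →* SL2 F :=
    { toFun := f
      map_one' := hj (by rw [hf, map_one, map_one])
      map_mul' := fun a b => hj (by rw [hf, map_mul, map_mul, hf, hf]) }
  apply small_fin φ'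
  intro d hd v hv
  have hfd : ∀ a b, (φ d) a b = algebraMap F (KK p) ((f d) a b) := by
    intro a b
    rw [← hf d]; rfl
  have h1 := hφ d hd (fun i => algebraMap F (KK p) (v i)) (by
    ext i
    have hv' : (f d).1.mulVec v = v := hv
    have h2 := congrFun hv' i
    have h3 : (f d) i 0 * v 0 + (f d) i 1 * v 1 = v i := by
      simpa [Matrix.mulVec, dotProduct, Fin.sum_univ_two] using h2
    have h4 := congrArg (algebraMap F (KK p)) h3
    rw [map_add, map_mul, map_mul, ← hfd, ← hfd] at h4
    simpa [Matrix.mulVec, dotProduct, Fin.sum_univ_two] using h4)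
  funext i
  have h5 := congrFun h1 i
  apply (algebraMap F (KK p)).injective
  rw [Pi.zero_apply, map_zero]
  exact h5

end Cfsg.Agent.Lib.Helper68ZaDICKSON
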