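import Mathlib
import Cfsg.Agent.Lib.Helper71ZaDefs

set_option autoImplicit false

namespace Cfsg.Agent.Lib.Helper68ZaPLANE

open Cfsg.Agent.Lib.Helper71ZaDefs Subgroup

/-- a `2 × 2` matrix with `m (α - m) = 1` has determinant one or is scalar -/
theorem det_or_scalar {E : Type*} [Field E] (m : Matrix (Fin 2) (Fin 2) E) (α : E)
    (h : m * (α • (1 : Matrix (Fin 2) (Fin 2) E) - m) = 1) :
    m.det = 1 ∨ ∃ c : E, m = c • (1 : Matrix (Fin 2) (Fin 2) E) := by
  have h00 := congrFun (congrFun h 0) 0
  have h01 := congrFun (congrFun h 0) 1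
  have h10 := congrFun (congrFun h 1) 0
  have h11 := congrFun (congrFun h 1) 1
  simp [Matrix.mul_apply, Fin.sum_univ_two] at h00 h01 h10 h11
  by_cases hα : α = m 0 0 + m 1 1
  · left
    rw [Matrix.det_fin_two]
    rw [hα] at h00
    linear_combination h00
  · right
    have hα' : α - m 0 0 - m 1 1 ≠ 0 := fun h => hα (by linear_combination h)
    have hb : m 0 1 = 0 := by
      have : m 0 1 * (α - m 0 0 - m 1 1) = 0 := by linear_combination h01
      exact (mul_eq_zero.mp this).resolve_right hα'
    have hc : m 1 0 = 0 := by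
      have : m 1 0 * (α - m 0 0 - m 1 1) = 0 := by linear_combination h10
      exact (mul_eq_zero.mp this).resolve_right hα'
    have had : m 0 0 = m 1 1 := by
      rw [hb, hc] at h00
      rw [hb, hc] at h11
      have : (m 0 0 - m 1 1) * (α - m 0 0 - m 1 1) = 0 := by linear_combination h00 - h11
      have := (mul_eq_zero.mp this).resolve_right hα'
      linear_combination this
    refine ⟨m 0 0, ?_⟩
    ext i j
    fin_cases i <;> fin_cases j <;> simp [hb, hc, had]

section plane
variable {E : Type*} [Field E] {D : Type*} [Group D] {V : Type*} [AddCommGroup V] [Module E V]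

theorem exists_hom_of_plane (ρ : Representation E D V) (hρ : Fpf ρ) (w₁ w₂ : V)
    (hli : LinearIndependent E ![w₁, w₂])
    (hinv : ∀ d : D, ρ d w₁ ∈ Submodule.span E {w₁, w₂} ∧ ρ d w₂ ∈ Submodule.span E {w₁, w₂})
    (S : Set D) (hS : closure S = ⊤)
    (hSs : ∀ s ∈ S, (∃ α : E, ρ s + ρ s⁻¹ = α • 1) ∧ ∃ d : D, s * d ≠ d * s) :
    ∃ φ : D →* Matrix.SpecialLinearGroup (Fin 2) E,
      ∀ d, d ≠ 1 → ∀ v : Fin 2 → E, (φ d).1.mulVec v = v → v = 0 := by
  have hrange : Set.range ![w₁, w₂] = {w₁, w₂} := by
    ext x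
    simp only [Set.mem_range, Set.mem_insert_iff, Set.mem_singleton_iff]
    constructor
    · rintro ⟨i, rfl⟩
      fin_cases i
      · left; rfl
      · right; rfl
    · rintro (rfl | rfl)
      · exact ⟨0, rfl⟩
      · exact ⟨1, rfl⟩
  set U : Submodule E V := Submodule.span E (Set.range ![w₁, w₂]) with hU
  have hw₁U : w₁ ∈ U := Submodule.subset_span ⟨0, rfl⟩
  have hw₁0 : w₁ ≠ 0 := hli.ne_zero 0
  have hinvU : ∀ d, U ≤ U.comap (ρ d) := by
    intro d
    rw [hU, Submodule.span_le]
    rintro _ ⟨i, rfl⟩
    rw [SetLike.mem_coe, Submodule.mem_comap, hrange]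
    fin_cases i
    · exact (hinv d).1
    · exact (hinv d).2
  let B : Module.Basis (Fin 2) E U := Module.Basis.span hli
  let M : D →* Matrix (Fin 2) (Fin 2) E :=
    ((LinearMap.toMatrixAlgEquiv B : Module.End E U ≃ₐ[E] _) : Module.End E U →* _).comp
      (ρ.subrepresentation U hinvU)
  have hMinj : ∀ a b : D, M a = M b → a = b := by
    intro a b hab
    have h1 : ρ.subrepresentation U hinvU a = ρ.subrepresentation U hinvU b :=
      (LinearMap.toMatrixAlgEquiv B).injective hab
    have h2 : ρ a w₁ = ρ b w₁ := by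
      have := congrArg (fun f : Module.End E U => ((f ⟨w₁, hw₁U⟩ : U) : V)) h1
      simpa using this
    by_contra hne
    have h3 : b⁻¹ * a ≠ 1 := by
      intro h
      apply hne
      have := congrArg (b * ·) h
      simpa using this
    apply hw₁0
    apply hρ _ h3
    rw [map_mul, Module.End.mul_apply, h2, ← Module.End.mul_apply, ← map_mul, inv_mul_cancel,
      map_one]
    rfl
  have hdet1 : ∀ s ∈ S, (M s).det = 1 := by
    intro s hs
    obtain ⟨⟨α, hα⟩, d, hd⟩ := hSs s hs
    have h1 : M s + M s⁻¹ = α • 1 := by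
      have h2 : ρ.subrepresentation U hinvU s + ρ.subrepresentation U hinvU s⁻¹ = α • 1 := by
        ext u
        have := congrArg (fun f : Module.End E V => f (u : V)) hα
        simpa using this
      have h3 := congrArg (LinearMap.toMatrixAlgEquiv B) h2
      rw [map_add, map_smul, map_one] at h3
      exact h3
    have h4 : M s * M s⁻¹ = 1 := by rw [← map_mul, mul_inv_cancel, map_one]
    have h5 : M s * (α • (1 : Matrix (Fin 2) (Fin 2) E) - M s) = 1 := by
      rw [← h1, add_sub_cancel_left, h4]
    rcases det_or_scalar _ _ h5 with h6 | ⟨c, hc⟩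
    · exact h6
    · exfalso
      apply hd
      apply hMinj
      rw [map_mul, map_mul, hc]
      simp
  have hdet : ∀ g, (M g).det = 1 := by
    intro g
    have hle : closure S ≤ (Matrix.detMonoidHom.comp M).ker := by
      rw [closure_le]
      intro s hs
      exact hdet1 s hs
    have : g ∈ (Matrix.detMonoidHom.comp M).ker := hle (hS ▸ mem_top g)
    exact this
  refine ⟨{ toFun := fun g => ⟨M g, hdet g⟩
            map_one' := by apply Subtype.ext; exact map_one M
            map_mul' := fun g h => by apply Subtype.ext; exact map_mul M g h }, ?_⟩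
  intro d hd v hv
  have hv' : (M d).mulVec v = v := hv
  set x : U := B.equivFun.symm v with hx
  have hxv : ⇑(B.repr x) = v := by
    have := B.equivFun.apply_symm_apply v
    rw [← hx] at this
    exact this
  have h1 := LinearMap.toMatrix_mulVec_repr B B (ρ.subrepresentation U hinvU d) x
  rw [hxv] at h1
  have h2 : (LinearMap.toMatrix B B (ρ.subrepresentation U hinvU d)).mulVec v = v := hv'
  rw [h2] at h1
  have h3 : B.repr (ρ.subrepresentation U hinvU d x) = B.repr x := by
    apply DFunLike.coe_injective
    rw [← h1, hxv]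
  have h4 : ρ.subrepresentation U hinvU d x = x := B.repr.injective h3
  have h5 : ρ d (x : V) = x := by
    have := congrArg (fun u : U => (u : V)) h4
    simpa using this
  have h6 : (x : V) = 0 := hρ d hd _ h5
  have h7 : x = 0 := Subtype.ext h6
  rw [← hxv, h7]
  simp

end plane

end Cfsg.Agent.Lib.Helper68ZaPLANE
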