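import Mathlib
import Cfsg.Agent.Lib.Helper69Schur
import Cfsg.Agent.S3954
import Cfsg.Agent.S3979

set_option autoImplicit false

/-!
Bounding the Schur multiplier of a finite group through subgroups of index prime to `p`.
-/

namespace Cfsg.Agent.Lib.Helper69Syl

open Cfsg Cfsg.Agent.Lib.Helper69Schur

universe u v w x

/-- the order of the kernel of a stem extension (in any universe) divides the order of the
multiplier -/
theorem card_ker_dvd {Q : Type u} [Group Q] [Finite Q] {A : Type v} [CommGroup A]
    (h : HasSchurMultiplier Q A) {Y : Type w} [Group Y] (ξ : Y →* Q)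
    (hξ : Function.Surjective ξ) (hc : ξ.ker ≤ Subgroup.center Y) (hs : ξ.ker ≤ commutator Y) :
    Nat.card ξ.ker ∣ Nat.card A := by
  obtain ⟨f, hf⟩ := exists_surj_of_hasSchurMultiplier h ξ hξ hc
  have h1 : ξ.ker ⊓ commutator Y = ξ.ker := inf_eq_left.2 hs
  have h2 := Subgroup.card_dvd_of_surjective f hf
  rwa [h1] at h2

/-- the multiplier only depends on the isomorphism type, across universes -/
theorem hasSchurMultiplier_of_mulEquiv {G : Type u} {G' : Type v} [Group G] [Group G'] [Finite G]
    (e : G ≃* G') {A : Type w} [CommGroup A] (h : HasSchurMultiplier G A) :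
    HasSchurMultiplier G' A := by
  have hfin : Finite G' := Finite.of_equiv _ e.toEquiv
  have hM' := hasSchurMultiplier_mult (piQ G') (piQ_surjective G')
  have hfA := finite_of_hasSchurMultiplier h
  have hfM := finite_of_hasSchurMultiplier hM'
  obtain ⟨⟨Γ, i1, i2, σ, hσ, ⟨eA⟩⟩, -⟩ := id h
  obtain ⟨⟨Γ', j1, j2, σ', hσ', ⟨eM⟩⟩, -⟩ := id hM'
  have k1 : (e.toMonoidHom.comp σ).ker = σ.ker := by
    ext y
    simp [MonoidHom.mem_ker]
  have k2 : (e.symm.toMonoidHom.comp σ').ker = σ'.ker := by
    ext y
    simp [MonoidHom.mem_ker]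
  have d1 : Nat.card A ∣ Nat.card (mult (piQ G')) := by
    have := card_ker_dvd hM' (e.toMonoidHom.comp σ) (e.surjective.comp hσ.1)
      (k1 ▸ hσ.2.1) (k1 ▸ hσ.2.2)
    rwa [k1, Nat.card_congr eA.toEquiv] at this
  obtain ⟨g, hg⟩ := exists_surj_of_hasSchurMultiplier h (e.symm.toMonoidHom.comp σ')
    (e.symm.surjective.comp hσ'.1) (k2 ▸ hσ'.2.1)
  have h3 : (e.symm.toMonoidHom.comp σ').ker ⊓ commutator Γ' = σ'.ker := by
    rw [k2]
    exact inf_eq_left.2 hσ'.2.2
  let g' : A →* mult (piQ G') := (eM.toMonoidHom.comp (MulEquiv.subgroupCongr h3).toMonoidHom).comp g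
  have hg' : Function.Surjective g' :=
    (eM.surjective.comp (MulEquiv.subgroupCongr h3).surjective).comp hg
  have hle : Nat.card A ≤ Nat.card (mult (piQ G')) := Nat.le_of_dvd Nat.card_pos d1
  have hle2 : Nat.card (mult (piQ G')) ≤ Nat.card A := Nat.card_le_card_of_surjective g' hg'
  have hbij : Function.Bijective g' :=
    (Nat.bijective_iff_surjective_and_card g').2 ⟨hg', le_antisymm hle hle2⟩
  exact hasSchurMultiplier_congr (MulEquiv.ofBijective g' hbij).symm hM'

/-- `p`-parts of the multiplier are bounded by the multiplier of a subgroup of index prime to `p` -/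
theorem pow_dvd_of_index {G : Type u} [Group G] [Finite G] (U : Subgroup G) {A : Type v}
    {B : Type w} [CommGroup A] [CommGroup B] (hA : HasSchurMultiplier G A)
    (hB : HasSchurMultiplier U B) {p : ℕ} (hp : p.Prime) (hU : ¬ p ∣ U.index) {k : ℕ}
    (hk : p ^ k ∣ Nat.card A) : p ^ k ∣ Nat.card B := by
  have hfA := finite_of_hasSchurMultiplier hA
  have hfB := finite_of_hasSchurMultiplier hB
  have : Fact p.Prime := ⟨hp⟩
  obtain ⟨C, ⟨e⟩⟩ := Cfsg.Agent.S3954.result U hA hB
  obtain ⟨S, hS⟩ := Sylow.exists_subgroup_card_pow_prime p hk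
  have hinj : Function.Injective ((powMonoidHom U.index : A →* A).comp S.subtype) := by
    rw [injective_iff_map_eq_one]
    intro s hs
    have h1 : (s : A) ^ U.index = 1 := hs
    have h2 : (s : A) ^ (p ^ k) = 1 := by
      have : s ^ (p ^ k) = 1 := by rw [← hS]; exact pow_card_eq_one'
      simpa using congrArg Subtype.val this
    have hcop : Nat.Coprime U.index (p ^ k) :=
      Nat.Coprime.pow_right k ((Nat.Prime.coprime_iff_not_dvd hp).2 hU).symm
    have h3 : (s : A) ^ (Nat.gcd U.index (p ^ k)) = 1 := by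
      rw [pow_gcd_eq_one]
      exact ⟨h1, h2⟩
    rw [hcop, pow_one] at h3
    exact Subtype.ext h3
  have h4 : Nat.card S ∣ Nat.card (powMonoidHom U.index : A →* A).range := by
    have hle : ((powMonoidHom U.index : A →* A).comp S.subtype).range ≤
        (powMonoidHom U.index : A →* A).range := by
      rintro _ ⟨s, rfl⟩
      exact ⟨s, rfl⟩
    have := Subgroup.card_dvd_of_le hle
    rwa [← Nat.card_congr (MonoidHom.ofInjective hinj).toEquiv] at this
  rw [hS, Nat.card_congr e.toEquiv] at h4
  exact h4.trans (Subgroup.card_subgroup_dvd_card C)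

theorem not_dvd_of_cyclic {G : Type u} [Group G] [Finite G] (U : Subgroup G) [IsCyclic U]
    {A : Type v} [CommGroup A] (hA : HasSchurMultiplier G A) {p : ℕ} (hp : p.Prime)
    (hU : ¬ p ∣ U.index) : ¬ p ∣ Nat.card A := by
  intro h
  have h1 := pow_dvd_of_index U hA (Cfsg.Agent.S3979.result (G := U)) hp hU (k := 1) (by simpa using h)
  have h2 : Nat.card (Multiplicative (ZMod 1)) = 1 := Nat.card_unique
  rw [h2, pow_one] at h1
  exact hp.one_lt.ne' (Nat.dvd_one.1 h1)

/-- primes whose square does not divide the group order do not divide the multiplier -/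
theorem not_dvd_of_not_sq_dvd {G : Type u} [Group G] [Finite G] {A : Type v} [CommGroup A]
    (hA : HasSchurMultiplier G A) {p : ℕ} (hp : p.Prime) (h : ¬ p ^ 2 ∣ Nat.card G) :
    ¬ p ∣ Nat.card A := by
  have : Fact p.Prime := ⟨hp⟩
  let P : Sylow p G := default
  have hcard := Sylow.card_eq_multiplicity P
  have hle : (Nat.card G).factorization p ≤ 1 := by
    by_contra hlt
    exact h ((pow_dvd_pow p (by omega)).trans (Nat.ordProj_dvd _ _))
  have hcyc : IsCyclic (P : Subgroup G) := by
    rcases Nat.le_one_iff_eq_zero_or_eq_one.1 hle with h0 | h1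
    · rw [h0, pow_zero] at hcard
      have : Subsingleton (P : Subgroup G) := (Nat.card_eq_one_iff_unique.1 hcard).1
      exact isCyclic_of_subsingleton
    · rw [h1, pow_one] at hcard
      exact isCyclic_of_prime_card hcard
  exact not_dvd_of_cyclic (P : Subgroup G) hA hp P.not_dvd_index

/-- a multiplier of prime order -/
theorem hasCyclic_of_card_prime {G : Type u} [Group G] {A : Type v} [CommGroup A]
    (hA : HasSchurMultiplier G A) {p : ℕ} (hp : p.Prime) (h : Nat.card A = p) :
    HasCyclicSchurMultiplier G p := by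
  have : Fact p.Prime := ⟨hp⟩
  have h2 : Nat.card (Multiplicative (ZMod p)) = p := by
    rw [Nat.card_eq_fintype_card, Fintype.card_multiplicative, ZMod.card]
  exact hasSchurMultiplier_congr (mulEquivOfPrimeCardEq h h2) hA

/-- a cyclic multiplier -/
theorem hasCyclic_of_card {G : Type u} [Group G] {A : Type v} [CommGroup A] [IsCyclic A]
    (hA : HasSchurMultiplier G A) {n : ℕ} [NeZero n] (h : Nat.card A = n) :
    HasCyclicSchurMultiplier G n := by
  have h2 : Nat.card (Multiplicative (ZMod n)) = n := by
    rw [Nat.card_eq_fintype_card, Fintype.card_multiplicative, ZMod.card]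
  exact hasSchurMultiplier_congr (mulEquivOfCyclicCardEq (h.trans h2.symm)) hA

/-- existence of an abstract multiplier -/
theorem exists_mult (G : Type u) [Group G] [Finite G] :
    ∃ (A : Type u) (_ : CommGroup A), Finite A ∧ HasSchurMultiplier G A := by
  have h := hasSchurMultiplier_mult (piQ G) (piQ_surjective G)
  exact ⟨mult (piQ G), inferInstance, finite_of_hasSchurMultiplier h, h⟩

end Cfsg.Agent.Lib.Helper69Syl
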