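import Mathlib
import Cfsg.Agent.Lib.Helper6Sol4

/-!
# Solubilizers in `PSL₂(F)`, characteristic 2: the count
-/

set_option autoImplicit false

namespace Cfsg.Agent.Lib.Helper6Sol

open Matrix Cfsg.Agent.Lib.Helper46SL2 Cfsg.Agent.Lib.Helper41SL2 Cfsg.Agent.Lib.Helper41Dk
  Cfsg.Agent.Lib.Helper6DkCor

local notation "SL2" => Matrix.SpecialLinearGroup (Fin 2)
local notation "PSL2" => Matrix.ProjectiveSpecialLinearGroup (Fin 2)

variable {F : Type*} [Field F]

theorem charP_two_of_card [Fintype F] {k : ℕ} (hF : Fintype.card F = 2 ^ k) : CharP F 2 := by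
  obtain ⟨c, hc⟩ := CharP.exists F
  have hcp : c.Prime := (CharP.char_is_prime_or_zero F c).resolve_right (by
    intro h0
    subst h0
    have := CharP.charP_to_charZero F
    exact not_finite F |>.elim) 
  have h1 : c ∣ Fintype.card F := card_dvd_of_char c
  rw [hF] at h1
  have h2 := (Nat.prime_dvd_prime_iff_eq hcp Nat.prime_two).1 (hcp.dvd_of_dvd_pow h1)
  rw [← h2]
  exact hc

/-- in characteristic 2, `PSL₂ = SL₂` -/
noncomputable def pslEquiv (F : Type*) [Field F] [CharP F 2] : PSL2 F ≃* SL2 F :=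
  (QuotientGroup.quotientMulEquivOfEq center_eq_bot).trans QuotientGroup.quotientBot

theorem eq_one_of_dvd_two {d q : ℕ} (hq : 2 ∣ q) (hq0 : 0 < q) (h1 : d ∣ q - 1 ∨ d ∣ q + 1)
    (h2 : d ∣ 2) : d = 1 := by
  rcases (Nat.dvd_prime Nat.prime_two).1 h2 with h | h
  · exact h
  · subst h
    rcases h1 with h1 | h1 <;> omega

variable [CharP F 2]

theorem card_sol_SL2 [Fintype F] (hq : 2 ∣ Fintype.card F) (A : SL2 F) :
    (orderOf A = 2 → Nat.card {B : SL2 F // Sol A B} = 3 * Fintype.card F * (Fintype.card F - 1)) ∧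
    (A ≠ 1 → orderOf A ∣ Fintype.card F - 1 →
      Nat.card {B : SL2 F // Sol A B} = 2 * Fintype.card F * (Fintype.card F - 1)) ∧
    (A ≠ 1 → orderOf A ∣ Fintype.card F + 1 →
      Nat.card {B : SL2 F // Sol A B} = 2 * (Fintype.card F + 1)) := by
  have hq0 : 0 < Fintype.card F := Fintype.card_pos
  have htr : A ≠ 1 → (orderOf A ∣ Fintype.card F - 1 ∨ orderOf A ∣ Fintype.card F + 1) →
      tr A ≠ 0 := by
    intro hA1 hd ht
    have h1 : A ^ 2 = 1 := by rw [sq]; exact sq_eq_one_iff_tr.2 ht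
    have h2 := eq_one_of_dvd_two hq hq0 hd (orderOf_dvd_of_pow_eq_one h1)
    exact hA1 (orderOf_eq_one_iff.1 h2)
  have hself : A ∈ (Subgroup.centralizer {A} : Subgroup (SL2 F)) := mem_centralizer_iff.2 rfl
  have hboth : A ≠ 1 → orderOf A ∣ Fintype.card F - 1 → orderOf A ∣ Fintype.card F + 1 → False := by
    intro hA1 h1 h2
    have h3 : orderOf A ∣ 2 := by
      have := Nat.dvd_sub h2 h1
      have e : Fintype.card F + 1 - (Fintype.card F - 1) = 2 := by omega
      rwa [e] at this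
    exact hA1 (orderOf_eq_one_iff.1 (eq_one_of_dvd_two hq hq0 (Or.inl h1) h3))
  refine ⟨?_, ?_, ?_⟩
  · intro h
    have hA1 : A ≠ 1 := by
      rintro rfl
      rw [orderOf_one] at h
      norm_num at h
    have hAA : A * A = 1 := by
      have := pow_orderOf_eq_one A
      rw [h, sq] at this
      exact this
    have ht := sq_eq_one_iff_tr.1 hAA
    obtain ⟨b, hb, hc⟩ := exists_isConj_uu (not_mem_center hA1) (by rw [ht, CharTwo.two_eq_zero])
    obtain ⟨c, hc⟩ := isConj_iff.1 hc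
    rw [← card_sol_equiv (MulAut.conj c) A, MulAut.conj_apply, hc]
    exact card_sol_uu hb
  · intro hA1 hd
    have ht := htr hA1 (Or.inl hd)
    rcases split_or_nonSplit (tr_sq_ne_four ht) with ⟨a, ha0, ha, hta⟩ | hNS
    · obtain ⟨c, hc⟩ := isConj_iff.1 (isConj_dg a ha0 ha hta)
      rw [← card_sol_equiv (MulAut.conj c) A, MulAut.conj_apply, hc]
      exact card_sol_dg ha0 ha
    · exfalso
      have h3 := Subgroup.orderOf_dvd_natCard _ hself
      rw [card_centralizer_nonSplit hNS] at h3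
      exact hboth hA1 hd h3
  · intro hA1 hd
    have ht := htr hA1 (Or.inr hd)
    rcases split_or_nonSplit (tr_sq_ne_four ht) with ⟨a, ha0, ha, hta⟩ | hNS
    · exfalso
      have h3 := Subgroup.orderOf_dvd_natCard _ hself
      rw [card_centralizer_split ha0 ha hta] at h3
      exact hboth hA1 h3 hd
    · exact card_sol_nonSplit hNS

theorem card_sol_PSL2 [Fintype F] (hq : 2 ∣ Fintype.card F) (x : PSL2 F) :
    (orderOf x = 2 → Nat.card {y : PSL2 F // Sol x y} = 3 * Fintype.card F * (Fintype.card F - 1)) ∧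
    (x ≠ 1 → orderOf x ∣ Fintype.card F - 1 →
      Nat.card {y : PSL2 F // Sol x y} = 2 * Fintype.card F * (Fintype.card F - 1)) ∧
    (x ≠ 1 → orderOf x ∣ Fintype.card F + 1 →
      Nat.card {y : PSL2 F // Sol x y} = 2 * (Fintype.card F + 1)) := by
  have h := card_sol_SL2 hq (pslEquiv F x)
  rw [card_sol_equiv (pslEquiv F) x, MulEquiv.orderOf_eq] at h
  have h1 : pslEquiv F x ≠ 1 ↔ x ≠ 1 := by
    rw [Ne, Ne, map_eq_one_iff _ (pslEquiv F).injective]
  rw [h1] at h
  exact h

end Cfsg.Agent.Lib.Helper6Sol
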