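import Mathlib
import Cfsg.Agent.Lib.Helper6SolB2

/-!
# Solubilizers in `PSL₂(F)`, odd characteristic: the dichotomy
-/

set_option autoImplicit false

namespace Cfsg.Agent.Lib.Helper6Sol

open Matrix Cfsg.Agent.Lib.Helper46SL2 Cfsg.Agent.Lib.Helper41SL2 Cfsg.Agent.Lib.Helper41Dk
  Cfsg.Agent.Lib.Helper6DkCor

local notation "SL2" => Matrix.SpecialLinearGroup (Fin 2)
local notation "PSL2" => Matrix.ProjectiveSpecialLinearGroup (Fin 2)

variable {F : Type*} [Field F]

/-- solvability of the images in `PSL₂` -/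
def SolP (X Y : SL2 F) : Prop := Sol (QuotientGroup.mk X : PSL2 F) (QuotientGroup.mk Y)

theorem solP_of_sol {X Y : SL2 F} (h : Sol X Y) : SolP X Y :=
  sol_map (QuotientGroup.mk' (Subgroup.center (SL2 F))) h

theorem alt_of_solP (h2 : (2 : F) ≠ 0) (hsq : ¬ IsSquare (2 : F)) {X Y : SL2 F}
    (hX : X ∉ Subgroup.center (SL2 F)) (h : SolP X Y) :
    (∃ n : SL2 F, n ∉ Subgroup.center (SL2 F) ∧ RR X n ∧ RR Y n) ∨
    (∀ k : SL2 F, (QuotientGroup.mk k : PSL2 F) ∈
        Subgroup.closure ({(QuotientGroup.mk X : PSL2 F), QuotientGroup.mk Y} : Set (PSL2 F)) →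
      (QuotientGroup.mk k : PSL2 F) ^ 2 = 1 ∨ (QuotientGroup.mk k : PSL2 F) ^ 3 = 1) := by
  have hx1 : (QuotientGroup.mk X : PSL2 F) ≠ 1 := by rwa [Ne, mk_eq_one_iff]
  obtain ⟨N, hNb, hcomm, hnorm⟩ := exists_normal_of_sol h hx1
  have hXm : (QuotientGroup.mk X : PSL2 F) ∈
      Subgroup.closure ({(QuotientGroup.mk X : PSL2 F), QuotientGroup.mk Y} : Set (PSL2 F)) :=
    Subgroup.subset_closure (by simp)
  have hYm : (QuotientGroup.mk Y : PSL2 F) ∈
      Subgroup.closure ({(QuotientGroup.mk X : PSL2 F), QuotientGroup.mk Y} : Set (PSL2 F)) :=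
    Subgroup.subset_closure (by simp)
  by_cases hA : ∃ a ∈ N, a ^ 2 ≠ 1
  · left
    obtain ⟨a, ha, ha2⟩ := hA
    obtain ⟨n, rfl⟩ := QuotientGroup.mk_surjective a
    have hnZ : n ∉ Subgroup.center (SL2 F) := by
      intro hn
      apply ha2
      rw [(mk_eq_one_iff n).2 hn, one_pow]
    have htr : tr n ≠ 0 := by
      intro ht
      apply ha2
      rw [mk_pow_eq_one_iff, sq, sq_eq_neg_one_of_tr_eq_zero ht, mem_center_iff_eq]
      exact Or.inr rfl
    have key : ∀ g : SL2 F, (QuotientGroup.mk g : PSL2 F) ∈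
        Subgroup.closure ({(QuotientGroup.mk X : PSL2 F), QuotientGroup.mk Y} : Set (PSL2 F)) →
        RR g n := by
      intro g hg
      have h1 := hcomm _ (hnorm _ hg _ ha) _ ha
      rw [← QuotientGroup.mk_inv, ← QuotientGroup.mk_mul, ← QuotientGroup.mk_mul,
        mk_commute_iff] at h1
      rcases h1 with h1 | h1
      · exact h1.symm
      · exfalso
        apply htr
        set n' := g * n * g⁻¹ with hn'
        have h3 : n'⁻¹ * n * n' = -n := by
          rw [mul_assoc, h1, mul_neg, ← mul_assoc, inv_mul_cancel, one_mul]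
        have h4 : tr (n'⁻¹ * n * n') = tr n := by
          have := tr_conj n n'⁻¹
          rwa [inv_inv] at this
        rw [h3, tr_neg] at h4
        have h5 : 2 * tr n = 0 := by linear_combination -h4
        exact (mul_eq_zero.1 h5).resolve_left h2
    exact ⟨n, hnZ, key X hXm, key Y hYm⟩
  · push Not at hA
    obtain ⟨⟨a, ha⟩, ha1'⟩ := Subgroup.ne_bot_iff_exists_ne_one.1 hNb
    have ha1 : a ≠ 1 := fun h => ha1' (Subtype.ext h)
    by_cases hB : ∃ b ∈ N, b ≠ 1 ∧ a ≠ b
    · right
      obtain ⟨b, hb, hb1, hab⟩ := hB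
      intro k hk
      exact sq_or_cube_of_normalizes (no_order_four h2 hsq) (klein_self_centralizing h2) N hA hcomm
        ha hb ha1 hb1 hab (hnorm _ hk)
    · left
      push Not at hB
      obtain ⟨n, rfl⟩ := QuotientGroup.mk_surjective a
      have hnZ : n ∉ Subgroup.center (SL2 F) := by rwa [Ne, mk_eq_one_iff] at ha1
      have key : ∀ g : SL2 F, (QuotientGroup.mk g : PSL2 F) ∈
          Subgroup.closure ({(QuotientGroup.mk X : PSL2 F), QuotientGroup.mk Y} : Set (PSL2 F)) →
          RR g n := by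
        intro g hg
        have h1 := hnorm _ hg _ ha
        have h3 : (QuotientGroup.mk g : PSL2 F) * QuotientGroup.mk n * (QuotientGroup.mk g)⁻¹ ≠ 1 := by
          intro h
          apply ha1
          rw [mul_inv_eq_one] at h
          have : (QuotientGroup.mk g : PSL2 F) * QuotientGroup.mk n = QuotientGroup.mk g * 1 := by
            rw [mul_one]; exact h
          exact mul_left_cancel this
        have h4 := hB _ h1 h3
        rw [← QuotientGroup.mk_inv, ← QuotientGroup.mk_mul, ← QuotientGroup.mk_mul,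
          mk_eq_mk_iff] at h4
        rcases h4 with h4 | h4
        · exact RR_of_commute h4
        · unfold RR
          rw [h4]
          exact (Commute.refl n).neg_left
      exact ⟨n, hnZ, key X hXm, key Y hYm⟩

section char3

variable [CharP F 3]

theorem three_eq_zero : (3 : F) = 0 := by
  have := CharP.cast_eq_zero F 3
  exact_mod_cast this

theorem two_ne_zero3 : (2 : F) ≠ 0 := by
  intro h
  have h3 : (3 : F) = 0 := three_eq_zero
  have : (1 : F) = 0 := by linear_combination h3 - h
  exact one_ne_zero this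

theorem tr_of_sq_or_cube [Fintype F] {g : SL2 F}
    (h : (QuotientGroup.mk g : PSL2 F) ^ 2 = 1 ∨ (QuotientGroup.mk g : PSL2 F) ^ 3 = 1) :
    tr g = 0 ∨ tr g = 1 ∨ tr g = -1 := by
  have h3 : (3 : F) = 0 := three_eq_zero
  have : Fact (Nat.Prime 3) := ⟨Nat.prime_three⟩
  rcases h with h | h
  · rw [mk_pow_eq_one_iff, mem_center_iff_eq, sq] at h
    rcases h with h | h
    · rcases (sq_eq_one_iff' two_ne_zero3).1 h with h | h
      · right; right
        rw [h, tr_one]; linear_combination h3
      · right; left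
        rw [h, tr_neg, tr_one]; linear_combination -h3
    · left; exact tr_eq_zero_of_sq h
  · rw [mk_pow_eq_one_iff, mem_center_iff_eq] at h
    rcases h with h | h
    · right; right
      have := tr_eq_two_of_pow_char 3 (g := g) 1 (by rw [pow_one]; exact h)
      rw [this]; linear_combination h3
    · right; left
      have h5 : (-g) ^ 3 = 1 := by
        rw [Odd.neg_pow (by decide), h, neg_neg]
      have := tr_eq_two_of_pow_char 3 (g := -g) 1 (by rw [pow_one]; exact h5)
      rw [tr_neg] at this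
      linear_combination -this - h3

end char3

end Cfsg.Agent.Lib.Helper6Sol
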