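import Mathlib
import Cfsg.Agent.Lib.Helper6SolB3
import Cfsg.Agent.Lib.Helper41Dk19

/-!
# Solubilizers in `PSL₂(F)`, characteristic 3: pairs inside `SL₂(3)`
-/

set_option autoImplicit false

namespace Cfsg.Agent.Lib.Helper6Sol

open Matrix Cfsg.Agent.Lib.Helper46SL2 Cfsg.Agent.Lib.Helper41SL2 Cfsg.Agent.Lib.Helper41Dk
  Cfsg.Agent.Lib.Helper6DkCor

local notation "SL2" => Matrix.SpecialLinearGroup (Fin 2)
local notation "PSL2" => Matrix.ProjectiveSpecialLinearGroup (Fin 2)

theorem sol_of_commute {G : Type*} [Group G] {x y : G} (h : Commute x y) : Sol x y := by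
  apply solvable_of_comm_subgroup
  intro a ha b hb
  have h1 : Subgroup.closure ({x, y} : Set G) ≤ Subgroup.centralizer ({x, y} : Set G) := by
    rw [Subgroup.closure_le]
    rintro z (rfl | rfl)
    · rw [SetLike.mem_coe, Subgroup.mem_centralizer_iff]
      rintro w (rfl | rfl)
      · rfl
      · exact h.symm
    · rw [SetLike.mem_coe, Subgroup.mem_centralizer_iff]
      rintro w (rfl | rfl)
      · exact h
      · rfl
  have h2 : Subgroup.closure ({x, y} : Set G) ≤ Subgroup.centralizer ({a} : Set G) := by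
    rw [Subgroup.closure_le]
    intro z hz
    rw [SetLike.mem_coe, Subgroup.mem_centralizer_singleton_iff]
    exact (Subgroup.mem_centralizer_iff.1 (h1 ha) z hz)
  exact (Subgroup.mem_centralizer_singleton_iff.1 (h2 hb)).symm

instance fact3 : Fact (Nat.Prime 3) := ⟨Nat.prime_three⟩

theorem solvable_SL2_three : Group.IsSolvable (SL2 (ZMod 3)) := by
  apply solvable_24
  rw [Cfsg.Agent.Lib.Helper7SL.card_SL_two, ZMod.card]
  norm_num

variable {F : Type*} [Field F] [CharP F 3]

theorem sol_ll_uu (k : ZMod 3) : Sol (ll (1 : F)) (uu ((ZMod.castHom (dvd_refl 3) F) k)) := by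
  set c := ZMod.castHom (dvd_refl 3) F with hc
  have hs : Group.IsSolvable (Matrix.SpecialLinearGroup.map (n := Fin 2) c).range := by
    have := solvable_SL2_three
    exact Group.isSolvable_of_surjective
      (f := (Matrix.SpecialLinearGroup.map (n := Fin 2) c).rangeRestrict)
      (MonoidHom.rangeRestrict_surjective _)
  apply sol_of_mem hs
  · refine ⟨ll 1, ?_⟩
    apply ext2 <;> simp
  · refine ⟨uu k, ?_⟩
    apply ext2 <;> simp

theorem sol_unip {g1 g2 : SL2 F} (h1 : tr g1 = 2) (h2 : tr g2 = 2)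
    (h3 : tr (g1 * g2) = 0 ∨ tr (g1 * g2) = 1 ∨ tr (g1 * g2) = -1) : Sol g1 g2 := by
  have h30 : (3 : F) = 0 := three_eq_zero
  by_cases hc : Commute g1 g2
  · exact sol_of_commute hc
  · obtain ⟨φ, μ, hφ, -, e1, e2⟩ := exists_normal_form_unip h1 h2 hc
    have htr : tr (g1 * g2) = 2 + μ := by
      rw [← hφ (g1 * g2), map_mul, e1, e2]
      simp only [tr, mul_00, mul_11, ll_00, ll_01, ll_10, ll_11, uu_00, uu_01, uu_10, uu_11]
      ring
    apply (sol_map_iff φ g1 g2).1
    rw [e1, e2]
    have hk : ∃ k : ZMod 3, (ZMod.castHom (dvd_refl 3) F) k = μ := by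
      rcases h3 with h | h | h
      · exact ⟨1, by rw [map_one]; linear_combination htr - h + h30⟩
      · exact ⟨-1, by rw [map_neg, map_one]; linear_combination htr - h⟩
      · exact ⟨0, by rw [map_zero]; linear_combination htr - h + h30⟩
    obtain ⟨k, rfl⟩ := hk
    exact sol_ll_uu k

end Cfsg.Agent.Lib.Helper6Sol
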