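import Mathlib
import Cfsg.Agent.Lib.Helper6SolB4

/-!
# Solubilizers in `PSL₂(F)`, characteristic 3: semisimple elements
-/

set_option autoImplicit false

namespace Cfsg.Agent.Lib.Helper6Sol

open Matrix Cfsg.Agent.Lib.Helper46SL2 Cfsg.Agent.Lib.Helper41SL2 Cfsg.Agent.Lib.Helper41Dk
  Cfsg.Agent.Lib.Helper6DkCor

local notation "SL2" => Matrix.SpecialLinearGroup (Fin 2)
local notation "PSL2" => Matrix.ProjectiveSpecialLinearGroup (Fin 2)

variable {F : Type*} [Field F]

theorem mem_normalizer_of_RR_ss' {A B n : SL2 F} (hA : A ∉ Subgroup.center (SL2 F)) (htA : tr A ≠ 0)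
    (hn : tr n ^ 2 ≠ 4) (hAn : RR A n) (hBn : RR B n) :
    B ∈ Subgroup.normalizer ((Subgroup.centralizer {A} : Subgroup (SL2 F)) : Set (SL2 F)) := by
  rcases cases_of_RR hn hAn with h | h
  · have hc : n * A = A * n := by
      calc n * A = (A * n * A⁻¹) * A := by rw [h]
        _ = A * n := by group
    rw [← centralizer_eq_of_commute hA (not_mem_center_of_tr hn) hc]
    exact (mem_normalizer_centralizer_iff hn).2 (cases_of_RR hn hBn)
  · exact absurd (tr_eq_zero_of_inverts hn h) htA

/-- an element of a conjugate of the Borel subgroup has a split trace -/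
theorem split_of_conj_Bor {A c : SL2 F} (h : c * A * c⁻¹ ∈ Bor F) :
    ∃ α : F, α ≠ 0 ∧ α + α⁻¹ = tr A := by
  have h2 := diag_of_mem_Bor h
  have h3 : (c * A * c⁻¹) 0 0 ≠ 0 := by
    intro h0; rw [h0, zero_mul] at h2; exact zero_ne_one h2
  refine ⟨_, h3, ?_⟩
  rw [← tr_conj A c]
  simp only [tr]
  congr 1
  exact (eq_inv_of_mul_eq_one_right h2).symm

theorem card_dg_union [Fintype F] {a : F} (ha : a ≠ 0) (h1 : a ^ 2 ≠ 1) :
    ((Bor F : Set (SL2 F)) ∪ {y | y 0 1 = 0} ∪
      (Subgroup.normalizer ((Subgroup.centralizer {dg a ha} : Subgroup (SL2 F)) : Set (SL2 F)) :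
        Set (SL2 F))).ncard = 2 * Fintype.card F * (Fintype.card F - 1) := by
  have hfin : Finite (SL2 F) := inferInstance
  have ht' : tr (dg a ha) ^ 2 ≠ 4 := by rw [tr_dg]; exact add_inv_sq_ne_four ha h1
  have hC : ∀ y : SL2 F, y ∈ (Subgroup.centralizer {dg a ha} : Subgroup (SL2 F)) ↔
      y 0 1 = 0 ∧ y 1 0 = 0 := by
    intro y
    rw [mem_centralizer_iff, commute_dg_iff ha h1]
  have hN : ∀ y : SL2 F, y 0 0 ≠ 0 →
      y ∈ Subgroup.normalizer ((Subgroup.centralizer {dg a ha} : Subgroup (SL2 F)) : Set (SL2 F)) →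
      y ∈ (Subgroup.centralizer {dg a ha} : Subgroup (SL2 F)) := by
    intro y h0 hy
    rcases (mem_normalizer_centralizer_iff ht').1 hy with h | h
    · rw [mem_centralizer_iff]
      calc y * dg a ha = y * dg a ha * y⁻¹ * y := by group
        _ = dg a ha * y := by rw [h]
    · exact absurd h (not_inverts_dg ha h1 h0)
  have hXY : (Bor F : Set (SL2 F)) ∩ {y | y 0 1 = 0} =
      ((Subgroup.centralizer {dg a ha} : Subgroup (SL2 F)) : Set (SL2 F)) := by
    ext y
    constructor
    · rintro ⟨h2, h3⟩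
      exact (hC y).2 ⟨h3, h2⟩
    · intro h
      exact ⟨((hC y).1 h).2, ((hC y).1 h).1⟩
  have hXW : (Bor F : Set (SL2 F)) ∩
      (Subgroup.normalizer ((Subgroup.centralizer {dg a ha} : Subgroup (SL2 F)) : Set (SL2 F)) :
        Set (SL2 F)) = ((Subgroup.centralizer {dg a ha} : Subgroup (SL2 F)) : Set (SL2 F)) := by
    ext y
    constructor
    · rintro ⟨h2, h3⟩
      apply hN y _ h3
      intro h0
      have := diag_of_mem_Bor h2
      rw [h0, zero_mul] at this
      exact zero_ne_one this
    · intro h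
      exact ⟨((hC y).1 h).2, centralizer_le_normalizer _ h⟩
  have hYW : ({y | y 0 1 = 0} : Set (SL2 F)) ∩
      (Subgroup.normalizer ((Subgroup.centralizer {dg a ha} : Subgroup (SL2 F)) : Set (SL2 F)) :
        Set (SL2 F)) = ((Subgroup.centralizer {dg a ha} : Subgroup (SL2 F)) : Set (SL2 F)) := by
    ext y
    constructor
    · rintro ⟨h2, h3⟩
      apply hN y _ h3
      intro h0
      have h2' : y 0 1 = 0 := h2
      have := det2 y
      rw [h0, h2'] at this
      simp at this
    · intro h
      exact ⟨((hC y).1 h).1, centralizer_le_normalizer _ h⟩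
  have key := ncard_three hXY hXW hYW
  have c1 : (Bor F : Set (SL2 F)).ncard = Fintype.card F * (Fintype.card F - 1) := by
    rw [← card_Bor]; exact (Nat.card_coe_set_eq _).symm
  have c2 : ({y | y 0 1 = 0} : Set (SL2 F)).ncard = Fintype.card F * (Fintype.card F - 1) := by
    rw [← card_Bor, ← Nat.card_coe_set_eq]
    apply Nat.card_congr
    refine (MulAut.conj (ww F)).toEquiv.subtypeEquiv (fun y => ?_)
    show y 0 1 = 0 ↔ (ww F * y * (ww F)⁻¹) 1 0 = 0
    rw [ww_conj_10, neg_eq_zero]
  have c4 : ((Subgroup.centralizer {dg a ha} : Subgroup (SL2 F)) : Set (SL2 F)).ncard =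
      Fintype.card F - 1 := by
    rw [← card_centralizer_split ha h1 (tr_dg a ha)]; exact (Nat.card_coe_set_eq _).symm
  have c3 : (Subgroup.normalizer ((Subgroup.centralizer {dg a ha} : Subgroup (SL2 F)) : Set (SL2 F)) :
        Set (SL2 F)).ncard = 2 * (Fintype.card F - 1) := by
    rw [← card_centralizer_split ha h1 (tr_dg a ha), ← card_normalizer_centralizer ht']
    exact (Nat.card_coe_set_eq _).symm
  rw [c1, c2, c3, c4] at key
  nlinarith [key]

variable [CharP F 3]

theorem four_eq_one : (4 : F) = 1 := by linear_combination (three_eq_zero : (3 : F) = 0)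

theorem not_isSquare_two (hm1 : ¬ IsSquare (-1 : F)) : ¬ IsSquare (2 : F) := by
  have : (2 : F) = -1 := by linear_combination (three_eq_zero : (3 : F) = 0)
  rwa [this]

theorem tr_sq_of_F3 {t : F} (h : t = 0 ∨ t = 1 ∨ t = -1) (h0 : t ≠ 0) : t ^ 2 = 4 := by
  rw [four_eq_one]
  rcases h with h | h | h
  · exact absurd h h0
  · rw [h]; ring
  · rw [h]; ring

omit [CharP F 3] in
theorem mk_mem_left (X Y : SL2 F) : (QuotientGroup.mk X : PSL2 F) ∈
    Subgroup.closure ({(QuotientGroup.mk X : PSL2 F), QuotientGroup.mk Y} : Set (PSL2 F)) :=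
  Subgroup.subset_closure (by simp)

omit [CharP F 3] in
theorem mk_mem_right (X Y : SL2 F) : (QuotientGroup.mk Y : PSL2 F) ∈
    Subgroup.closure ({(QuotientGroup.mk X : PSL2 F), QuotientGroup.mk Y} : Set (PSL2 F)) :=
  Subgroup.subset_closure (by simp)

omit [CharP F 3] in
theorem mk_mem_mul (X Y : SL2 F) : (QuotientGroup.mk (X * Y) : PSL2 F) ∈
    Subgroup.closure ({(QuotientGroup.mk X : PSL2 F), QuotientGroup.mk Y} : Set (PSL2 F)) := by
  rw [QuotientGroup.mk_mul]
  exact Subgroup.mul_mem _ (mk_mem_left X Y) (mk_mem_right X Y)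

theorem solP_nonSplit_iff [Fintype F] (hm1 : ¬ IsSquare (-1 : F)) {A : SL2 F}
    (hNS : NonSplit (tr A)) (htA : tr A ≠ 0) (B : SL2 F) :
    SolP A B ↔
      B ∈ Subgroup.normalizer ((Subgroup.centralizer {A} : Subgroup (SL2 F)) : Set (SL2 F)) := by
  have hAZ := not_mem_center_of_tr hNS.sq_ne_four
  constructor
  · intro h
    rcases alt_of_solP two_ne_zero3 (not_isSquare_two hm1) hAZ h with ⟨n, hn, hAn, hBn⟩ | h
    · by_cases ht : tr n ^ 2 = 4
      · exfalso
        obtain ⟨c, hc⟩ := exists_conj_Bor' hn ht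
        obtain ⟨α, hα, h1⟩ := split_of_conj_Bor (hc A hAn)
        exact (nonSplit_iff.1 hNS) α hα h1
      · exact mem_normalizer_of_RR_ss' hAZ htA ht hAn hBn
    · exact absurd (tr_sq_of_F3 (tr_of_sq_or_cube (h A (mk_mem_left A B))) htA) hNS.sq_ne_four
  · intro h
    exact solP_of_sol (sol_of_mem (solvable_normalizer hNS.sq_ne_four) (self_mem_normalizer A) h)

theorem card_solP_nonSplit [Fintype F] (hm1 : ¬ IsSquare (-1 : F)) {A : SL2 F}
    (hNS : NonSplit (tr A)) (htA : tr A ≠ 0) :
    Nat.card {B : SL2 F // SolP A B} = 2 * (Fintype.card F + 1) := by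
  rw [← card_centralizer_nonSplit hNS, ← card_normalizer_centralizer hNS.sq_ne_four]
  exact Nat.card_congr (Equiv.subtypeEquivRight (fun B => solP_nonSplit_iff hm1 hNS htA B))

theorem solP_dg_iff [Fintype F] (hm1 : ¬ IsSquare (-1 : F)) {a : F} (ha : a ≠ 0) (h1 : a ^ 2 ≠ 1)
    (B : SL2 F) :
    SolP (dg a ha) B ↔ B ∈ ((Bor F : Set (SL2 F)) ∪ {y | y 0 1 = 0} ∪
      (Subgroup.normalizer ((Subgroup.centralizer {dg a ha} : Subgroup (SL2 F)) : Set (SL2 F)) :
        Set (SL2 F))) := by
  have e00 : (dg a ha) 0 0 = a := rfl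
  have e01 : (dg a ha) 0 1 = 0 := rfl
  have e10 : (dg a ha) 1 0 = 0 := rfl
  have e11 : (dg a ha) 1 1 = a⁻¹ := rfl
  have ht' : tr (dg a ha) ^ 2 ≠ 4 := by rw [tr_dg]; exact add_inv_sq_ne_four ha h1
  have hAZ := not_mem_center_of_tr ht'
  have hsqm : a ^ 2 ≠ -1 := fun h => hm1 ⟨a, by rw [← h, sq]⟩
  have htA : tr (dg a ha) ≠ 0 := by
    rw [tr_dg]
    intro h
    apply hsqm
    have h2 : a * (a + a⁻¹) = 0 := by rw [h, mul_zero]
    rw [mul_add, mul_inv_cancel₀ ha] at h2
    linear_combination h2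
  constructor
  · intro h
    rcases alt_of_solP two_ne_zero3 (not_isSquare_two hm1) hAZ h with ⟨n, hn, hAn, hBn⟩ | h
    · by_cases ht : tr n ^ 2 = 4
      · -- reduce to trace 2
        have key : ∀ n : SL2 F, n ∉ Subgroup.center (SL2 F) → tr n = 2 → RR (dg a ha) n → RR B n →
            B ∈ ((Bor F : Set (SL2 F)) ∪ {y | y 0 1 = 0}) := by
          intro n hn ht hAn hBn
          have hn1 : n ≠ 1 := by
            rintro rfl
            exact hn (Subgroup.one_mem _)
          have hc : dg a ha * n * (dg a ha)⁻¹ * n = n * (dg a ha * n * (dg a ha)⁻¹) := hAn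
          have h00 := congrArg (fun B : SL2 F => B 0 0) hc
          simp only [mul_00, mul_01, mul_10, mul_11, inv_00, inv_01, inv_10, inv_11, e00, e01, e10,
            e11] at h00
          have h4 : a ^ 4 ≠ 1 := by
            intro h4
            have h5 : (a ^ 2 - 1) * (a ^ 2 + 1) = 0 := by linear_combination h4
            rcases mul_eq_zero.1 h5 with h6 | h6
            · exact h1 (by linear_combination h6)
            · exact hsqm (by linear_combination h6)
          have h5 : (a ^ 4 - 1) * (n 0 1 * n 1 0) = 0 := by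
            have : a ^ 2 * (a⁻¹ * a⁻¹) = 1 := by field_simp
            linear_combination a ^ 2 * h00 + (n 0 1 * n 1 0) * this
          rcases mul_eq_zero.1 ((mul_eq_zero.1 h5).resolve_left (sub_ne_zero.2 h4)) with h6 | h6
          · have hm : ww F * n * (ww F)⁻¹ ∈ UU F := by
              apply mem_UU_of_Bor_of_tr
              · rw [mem_Bor, ww_conj_10, h6, neg_zero]
              · rw [tr_conj, ht]
            have h7 := eq_uu_of_mem hm
            have h8 : (ww F * n * (ww F)⁻¹) 0 1 ≠ 0 := by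
              intro h
              rw [h, uu_zero] at h7
              apply hn1
              have : n = (ww F)⁻¹ * (ww F * n * (ww F)⁻¹) * ww F := by group
              rw [this, h7]; group
            have h9 := RR_conj (ww F) B n hBn
            rw [h7] at h9
            have h10 := mem_Bor_of_RR h8 h9
            rw [mem_Bor, ww_conj_10] at h10
            exact Or.inr (neg_eq_zero.1 h10)
          · have hm : n ∈ UU F := mem_UU_of_Bor_of_tr h6 ht
            have h7 := eq_uu_of_mem hm
            have h8 : n 0 1 ≠ 0 := by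
              intro h
              rw [h, uu_zero] at h7
              exact hn1 h7
            rw [h7] at hBn
            exact Or.inl (mem_Bor_of_RR h8 hBn)
        have h5 : (tr n - 2) * (tr n + 2) = 0 := by linear_combination ht
        rcases mul_eq_zero.1 h5 with h6 | h6
        · exact Or.inl (key n hn (by linear_combination h6) hAn hBn)
        · exact Or.inl (key (-n) (neg_not_mem_center hn) (by rw [tr_neg]; linear_combination -h6)
            (RR_neg hAn) (RR_neg hBn))
      · exact Or.inr (mem_normalizer_of_RR_ss' hAZ htA ht hAn hBn)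
    · exact absurd (tr_sq_of_F3 (tr_of_sq_or_cube (h _ (mk_mem_left _ B))) htA) ht'
  · rintro ((hB | hB) | hB)
    · exact solP_of_sol (sol_of_mem solvable_Bor (show dg a ha ∈ Bor F from rfl) hB)
    · apply solP_of_sol
      apply (sol_map_iff (MulAut.conj (ww F)) (dg a ha) B).1
      apply sol_of_mem solvable_Bor
      · rw [MulAut.conj_apply, mem_Bor, ww_conj_10, e01, neg_zero]
      · have hB' : B 0 1 = 0 := hB
        rw [MulAut.conj_apply, mem_Bor, ww_conj_10, hB', neg_zero]
    · exact solP_of_sol (sol_of_mem (solvable_normalizer ht') (self_mem_normalizer _) hB)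

theorem card_solP_dg [Fintype F] (hm1 : ¬ IsSquare (-1 : F)) {a : F} (ha : a ≠ 0) (h1 : a ^ 2 ≠ 1) :
    Nat.card {B : SL2 F // SolP (dg a ha) B} = 2 * Fintype.card F * (Fintype.card F - 1) := by
  rw [← card_dg_union ha h1, ← Nat.card_coe_set_eq]
  exact Nat.card_congr (Equiv.subtypeEquivRight (fun B => solP_dg_iff hm1 ha h1 B))

end Cfsg.Agent.Lib.Helper6Sol
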