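import Mathlib
import Cfsg.Agent.Lib.Helper6SolB5

/-!
# Solubilizers in `PSL₂(F)`, characteristic 3: elements of order 3
-/

set_option autoImplicit false

namespace Cfsg.Agent.Lib.Helper6Sol

open Matrix Cfsg.Agent.Lib.Helper46SL2 Cfsg.Agent.Lib.Helper41SL2 Cfsg.Agent.Lib.Helper41Dk
  Cfsg.Agent.Lib.Helper6DkCor

local notation "SL2" => Matrix.SpecialLinearGroup (Fin 2)
local notation "PSL2" => Matrix.ProjectiveSpecialLinearGroup (Fin 2)

variable {F : Type*} [Field F]

/-- membership in the prime field `𝔽₃` -/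
def F3 (t : F) : Prop := t = 0 ∨ t = 1 ∨ t = -1

theorem solP_neg_right {X Y : SL2 F} : SolP X (-Y) ↔ SolP X Y := by
  unfold SolP; rw [mk_neg]

theorem solP_neg_left {X Y : SL2 F} : SolP (-X) Y ↔ SolP X Y := by
  unfold SolP; rw [mk_neg]

theorem solP_mul_iff {X Y : SL2 F} : SolP X (X * Y) ↔ SolP X Y := by
  unfold SolP; rw [QuotientGroup.mk_mul, sol_mul_iff]

theorem F3.neg {t : F} (h : F3 t) : F3 (-t) := by
  rcases h with h | h | h
  · left; rw [h, neg_zero]
  · right; right; rw [h]
  · right; left; rw [h, neg_neg]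

theorem F3.mul {s t : F} (hs : F3 s) (ht : F3 t) : F3 (s * t) := by
  rcases hs with h | h | h
  · left; rw [h, zero_mul]
  · rw [h, one_mul]; exact ht
  · rw [h, neg_one_mul]; exact ht.neg

variable [CharP F 3]

theorem F3.add {s t : F} (hs : F3 s) (ht : F3 t) : F3 (s + t) := by
  have h3 : (3 : F) = 0 := three_eq_zero
  rcases hs with h | h | h <;> rcases ht with h' | h' | h' <;> subst h <;> subst h'
  · left; ring
  · right; left; ring
  · right; right; ring
  · right; left; ring
  · right; right; linear_combination h3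
  · left; ring
  · right; right; ring
  · left; ring
  · right; left; linear_combination -h3

theorem F3.sub {s t : F} (hs : F3 s) (ht : F3 t) : F3 (s - t) := by
  rw [sub_eq_add_neg]; exact hs.add ht.neg

theorem two_eq_neg_one : (2 : F) = -1 := by linear_combination (three_eq_zero : (3 : F) = 0)

/-- two elements of trace `±1` whose product has trace in `𝔽₃` -/
theorem solP_of_traces {Y W : SL2 F} (hY : tr Y = 1 ∨ tr Y = -1) (hW : tr W = 1 ∨ tr W = -1)
    (hYW : F3 (tr (Y * W))) : SolP Y W := by
  have key : ∀ Y W : SL2 F, tr Y = -1 → tr W = -1 → F3 (tr (Y * W)) → SolP Y W := by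
    intro Y W hY hW h
    exact solP_of_sol (sol_unip (by rw [hY, two_eq_neg_one]) (by rw [hW, two_eq_neg_one]) h)
  rcases hY with hY | hY <;> rcases hW with hW | hW
  · rw [← solP_neg_left, ← solP_neg_right]
    exact key _ _ (by rw [tr_neg, hY]) (by rw [tr_neg, hW]) (by rw [neg_mul_neg]; exact hYW)
  · rw [← solP_neg_left]
    exact key _ _ (by rw [tr_neg, hY]) hW (by rw [neg_mul, tr_neg]; exact hYW.neg)
  · rw [← solP_neg_right]
    exact key _ _ hY (by rw [tr_neg, hW]) (by rw [mul_neg, tr_neg]; exact hYW.neg)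
  · exact key _ _ hY hW hYW

omit [CharP F 3] in
theorem tr_uu_mul (b : F) (B : SL2 F) : tr (uu b * B) = tr B + b * B 1 0 := by
  simp only [tr, mul_00, mul_11, uu_00, uu_01, uu_10, uu_11]
  ring

omit [CharP F 3] in
theorem tr_uu' (b : F) : tr (uu b) = 2 := by
  simp only [tr, uu_00, uu_11]; norm_num

omit [CharP F 3] in
theorem uu_not_mem_center {b : F} (hb : b ≠ 0) : uu b ∉ Subgroup.center (SL2 F) := by
  rw [mem_center_iff]
  rintro ⟨h, -, -⟩
  exact hb h

theorem solP_uu_iff [Fintype F] (hm1 : ¬ IsSquare (-1 : F)) {b : F} (hb : b ≠ 0) (B : SL2 F) :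
    SolP (uu b) B ↔ B ∈ ((Bor F : Set (SL2 F)) ∪
      {y | F3 (tr y) ∧ (b * y 1 0 = 1 ∨ b * y 1 0 = -1)}) := by
  have hAZ := uu_not_mem_center hb
  constructor
  · intro h
    rcases alt_of_solP two_ne_zero3 (not_isSquare_two hm1) hAZ h with ⟨n, hn, hAn, hBn⟩ | h
    · left
      by_cases ht : tr n ^ 2 = 4
      · have key : ∀ n : SL2 F, n ∉ Subgroup.center (SL2 F) → tr n = 2 → RR (uu b) n → RR B n →
            B ∈ Bor F := by
          intro n hn ht hAn hBn
          have hn1 : n ≠ 1 := by
            rintro rfl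
            exact hn (Subgroup.one_mem _)
          obtain ⟨b', hb', hc⟩ := exists_isConj_uu hn ht
          obtain ⟨c, hc⟩ := isConj_iff.1 hc
          have h1 := RR_conj c (uu b) n hAn
          rw [hc] at h1
          have h2 : c * uu b * c⁻¹ ∈ UU F :=
            mem_UU_of_Bor_of_tr (mem_Bor_of_RR hb' h1) (by rw [tr_conj, tr_uu'])
          have h3 := UU_comm h2 (uu_mem b')
          rw [← hc] at h3
          have h4 : Commute (uu b) n := (Commute.conj_iff c).1 h3
          obtain ⟨h5, -⟩ := (commute_uu_iff hb).1 h4.symm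
          have hm : n ∈ UU F := mem_UU_of_Bor_of_tr h5 ht
          have h7 := eq_uu_of_mem hm
          have h8 : n 0 1 ≠ 0 := by
            intro h
            rw [h, uu_zero] at h7
            exact hn1 h7
          rw [h7] at hBn
          exact mem_Bor_of_RR h8 hBn
        have h5 : (tr n - 2) * (tr n + 2) = 0 := by linear_combination ht
        rcases mul_eq_zero.1 h5 with h6 | h6
        · exact key n hn (by linear_combination h6) hAn hBn
        · exact key (-n) (neg_not_mem_center hn) (by rw [tr_neg]; linear_combination -h6)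
            (RR_neg hAn) (RR_neg hBn)
      · exfalso
        rcases cases_of_RR ht hAn with h | h
        · have hc : Commute n (uu b) := by
            show n * uu b = uu b * n
            calc n * uu b = (uu b * n * (uu b)⁻¹) * uu b := by rw [h]
              _ = uu b * n := by group
          obtain ⟨h1, h2⟩ := (commute_uu_iff hb).1 hc
          apply ht
          have hd := det2 n
          rw [h1, ← h2] at hd
          simp only [tr]
          rw [← h2]
          linear_combination 4 * hd
        · have := tr_eq_zero_of_inverts ht h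
          rw [tr_uu'] at this
          exact two_ne_zero3 this
    · have t1 : F3 (tr B) := tr_of_sq_or_cube (h B (mk_mem_right _ B))
      have t2 : F3 (tr (uu b * B)) := tr_of_sq_or_cube (h _ (mk_mem_mul _ B))
      have t3 : F3 (b * B 1 0) := by
        have := t2.sub t1
        rwa [tr_uu_mul, add_sub_cancel_left] at this
      rcases t3 with h0 | h0 | h0
      · left
        exact (mul_eq_zero.1 h0).resolve_left hb
      · right; exact ⟨t1, Or.inl h0⟩
      · right; exact ⟨t1, Or.inr h0⟩
  · rintro (hB | ⟨t1, hd⟩)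
    · exact solP_of_sol (sol_of_mem solvable_Bor (show uu b ∈ Bor F from rfl) hB)
    · have hX : tr (uu b) = 1 ∨ tr (uu b) = -1 := Or.inr (by rw [tr_uu', two_eq_neg_one])
      have hd3 : F3 (b * B 1 0) := Or.inr hd
      rcases t1 with h0 | h0
      · rw [← solP_mul_iff]
        apply solP_of_traces hX
        · rw [tr_uu_mul, h0, zero_add]; exact hd
        · rw [tr_uu_mul, tr_uu_mul, h0, zero_add, mul_10, uu_10, uu_11, zero_mul, one_mul, zero_add]
          exact hd3.add hd3
      · apply solP_of_traces hX h0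
        rw [tr_uu_mul]
        exact F3.add (Or.inr h0) hd3

theorem one_ne_neg_one3 : (1 : F) ≠ -1 := by
  intro h
  apply two_ne_zero3 (F := F)
  linear_combination h

theorem card_pm : Nat.card ↥({1, -1} : Set F) = 2 := by
  rw [Nat.card_coe_set_eq, Set.ncard_pair one_ne_neg_one3]

theorem card_F3 : Nat.card ↥({0, 1, -1} : Set F) = 3 := by
  rw [Nat.card_coe_set_eq, Set.ncard_insert_of_notMem, Set.ncard_pair one_ne_neg_one3]
  rintro (h | h)
  · exact zero_ne_one h
  · have h' : (0 : F) = -1 := h
    apply one_ne_zero (α := F)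
    linear_combination h'

theorem card_E [Fintype F] {b : F} (hb : b ≠ 0) :
    Nat.card {y : SL2 F // F3 (tr y) ∧ (b * y 1 0 = 1 ∨ b * y 1 0 = -1)} = 6 * Fintype.card F := by
  have hbij : Function.Bijective
      (fun y : {y : SL2 F // F3 (tr y) ∧ (b * y 1 0 = 1 ∨ b * y 1 0 = -1)} =>
        ((⟨b * y.1 1 0, y.2.2⟩, ⟨tr y.1, y.2.1⟩, y.1 0 0) :
          ↥({1, -1} : Set F) × ↥({0, 1, -1} : Set F) × F)) := by
    constructor
    · rintro ⟨y, hy1, hy2⟩ ⟨y', hy1', hy2'⟩ h
      simp only [Prod.mk.injEq] at h
      obtain ⟨h10, htr, h00⟩ := h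
      have h10 := congrArg Subtype.val h10
      have htr := congrArg Subtype.val htr
      simp only at h10 htr
      have h10' : y 1 0 = y' 1 0 := mul_left_cancel₀ hb h10
      have hne : y 1 0 ≠ 0 := by
        intro h0
        rw [h0, mul_zero] at hy2
        rcases hy2 with h | h
        · exact zero_ne_one h
        · apply one_ne_zero (α := F); linear_combination h
      have h11 : y 1 1 = y' 1 1 := by
        simp only [tr] at htr
        linear_combination htr - h00
      have d := det2 y
      have d' := det2 y'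
      have h01 : y 0 1 = y' 0 1 := by
        apply mul_right_cancel₀ hne
        rw [← h00, ← h11, ← h10'] at d'
        linear_combination d' - d
      apply Subtype.ext
      exact ext2 h00 h01 h10' h11
    · rintro ⟨⟨ε, hε⟩, ⟨τ, hτ⟩, α⟩
      have hε0 : ε ≠ 0 := by
        rintro rfl
        rcases hε with h | h
        · exact zero_ne_one h
        · have h' : (0 : F) = -1 := h
          apply one_ne_zero (α := F); linear_combination h'
      have hγ : ε / b ≠ 0 := div_ne_zero hε0 hb
      have e1 : b * (ε / b) = ε := mul_div_cancel₀ ε hb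
      refine ⟨⟨mk2 α ((α * (τ - α) - 1) / (ε / b)) (ε / b) (τ - α)
        (by rw [div_mul_cancel₀ _ hγ]; ring), ?_, ?_⟩, ?_⟩
      · show F3 (α + (τ - α))
        rw [add_sub_cancel]
        exact hτ
      · show b * (ε / b) = 1 ∨ b * (ε / b) = -1
        rw [e1]
        exact hε
      · refine Prod.ext (Subtype.ext e1) (Prod.ext (Subtype.ext ?_) rfl)
        show α + (τ - α) = τ
        ring
  rw [Nat.card_congr (Equiv.ofBijective _ hbij), Nat.card_prod, Nat.card_prod, card_pm, card_F3,
    Nat.card_eq_fintype_card]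
  ring

theorem card_solP_uu [Fintype F] (hm1 : ¬ IsSquare (-1 : F)) {b : F} (hb : b ≠ 0) :
    Nat.card {B : SL2 F // SolP (uu b) B} = Fintype.card F * (Fintype.card F + 5) := by
  have hfin : Finite (SL2 F) := inferInstance
  have hset : {B : SL2 F | SolP (uu b) B} = ((Bor F : Set (SL2 F)) ∪
      {y | F3 (tr y) ∧ (b * y 1 0 = 1 ∨ b * y 1 0 = -1)}) := by
    ext B
    exact solP_uu_iff hm1 hb B
  have hdisj : Disjoint (Bor F : Set (SL2 F))
      {y | F3 (tr y) ∧ (b * y 1 0 = 1 ∨ b * y 1 0 = -1)} := by
    rw [Set.disjoint_left]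
    rintro y hy ⟨-, h⟩
    have hy' : y 1 0 = 0 := hy
    rw [hy', mul_zero] at h
    rcases h with h | h
    · exact zero_ne_one h
    · apply one_ne_zero (α := F); linear_combination h
  have c5 : Nat.card {B : SL2 F // SolP (uu b) B} = {B : SL2 F | SolP (uu b) B}.ncard :=
    Nat.card_coe_set_eq _
  have c1 : (Bor F : Set (SL2 F)).ncard = Fintype.card F * (Fintype.card F - 1) := by
    rw [← card_Bor]; exact (Nat.card_coe_set_eq _).symm
  have c2 : ({y | F3 (tr y) ∧ (b * y 1 0 = 1 ∨ b * y 1 0 = -1)} : Set (SL2 F)).ncard =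
      6 * Fintype.card F := by
    rw [← card_E hb]; exact (Nat.card_coe_set_eq _).symm
  rw [c5, hset, Set.ncard_union_eq hdisj (Set.toFinite _) (Set.toFinite _), c1, c2]
  obtain ⟨k, hk⟩ : ∃ k, Fintype.card F = k + 1 := ⟨Fintype.card F - 1, by
    have := Fintype.card_pos (α := F); omega⟩
  rw [hk, Nat.add_sub_cancel]
  ring

end Cfsg.Agent.Lib.Helper6Sol
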