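import Mathlib
import Cfsg.Agent.Lib.Helper6SolB6

/-!
# Solubilizers in `PSL₂(F)`, characteristic 3: involutions
-/

set_option autoImplicit false

namespace Cfsg.Agent.Lib.Helper6Sol

open Matrix Cfsg.Agent.Lib.Helper46SL2 Cfsg.Agent.Lib.Helper41SL2 Cfsg.Agent.Lib.Helper41Dk
  Cfsg.Agent.Lib.Helper6DkCor

local notation "SL2" => Matrix.SpecialLinearGroup (Fin 2)
local notation "PSL2" => Matrix.ProjectiveSpecialLinearGroup (Fin 2)

theorem sol_of_sol_mul {G : Type*} [Group G] {x y : G} (h : Sol y (x * y)) : Sol x y := by
  apply sol_of_mem h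
  · have h1 : y ∈ Subgroup.closure ({y, x * y} : Set G) := Subgroup.subset_closure (by simp)
    have h2 : x * y ∈ Subgroup.closure ({y, x * y} : Set G) := Subgroup.subset_closure (by simp)
    have := Subgroup.mul_mem _ h2 (Subgroup.inv_mem _ h1)
    rwa [mul_inv_cancel_right] at this
  · exact Subgroup.subset_closure (by simp)

variable {F : Type*} [Field F]

theorem tr_ww : tr (ww F) = 0 := by
  show (0 : F) + 0 = 0
  ring

theorem ww_sq : ww F * ww F = -1 := sq_eq_neg_one_of_tr_eq_zero tr_ww

theorem inv_eq_neg_of_sq {X : SL2 F} (h : X * X = -1) : X⁻¹ = -X := by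
  apply inv_eq_of_mul_eq_one_left
  rw [neg_mul, h, neg_neg]

theorem tr_mul_mul_self (B X : SL2 F) : tr (B * (X * B)) = tr B * tr (X * B) - tr X := by
  have h := det2 B
  simp only [tr, mul_00, mul_01, mul_10, mul_11]
  linear_combination (-(X 0 0 + X 1 1)) * h

theorem tr_ww_mul (B : SL2 F) : tr (ww F * B) = B 1 0 - B 0 1 := by
  have e00 : (ww F) 0 0 = 0 := rfl
  have e01 : (ww F) 0 1 = 1 := rfl
  have e10 : (ww F) 1 0 = -1 := rfl
  have e11 : (ww F) 1 1 = 0 := rfl
  simp only [tr, mul_00, mul_11, e00, e01, e10, e11]
  ring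

variable [CharP F 3]

theorem ww_tr_sq_ne : tr (ww F) ^ 2 ≠ 4 := by
  rw [tr_ww, four_eq_one]
  intro h
  apply one_ne_zero (α := F)
  rw [← h]; ring

theorem solP_ww_iff [Fintype F] (hm1 : ¬ IsSquare (-1 : F)) (B : SL2 F) :
    SolP (ww F) B ↔ B ∈ ((((Subgroup.centralizer {ww F} : Subgroup (SL2 F)) : Set (SL2 F)) ∪
      {y | tr y = 0} ∪ {y | tr (ww F * y) = 0}) ∪
      {y | (tr y = 1 ∨ tr y = -1) ∧ (tr (ww F * y) = 1 ∨ tr (ww F * y) = -1)}) := by
  have ht' := ww_tr_sq_ne (F := F)
  have hAZ := not_mem_center_of_tr ht'
  have hXX := ww_sq (F := F)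
  have hXi := inv_eq_neg_of_sq hXX
  constructor
  · intro h
    rcases alt_of_solP two_ne_zero3 (not_isSquare_two hm1) hAZ h with ⟨n, hn, hAn, hBn⟩ | h
    · left
      by_cases ht : tr n ^ 2 = 4
      · exfalso
        obtain ⟨c, hc⟩ := exists_conj_Bor' hn ht
        obtain ⟨α, hα, h1⟩ := split_of_conj_Bor (hc _ hAn)
        rw [tr_ww] at h1
        apply hm1
        refine ⟨α, ?_⟩
        have h2 : α * (α + α⁻¹) = 0 := by rw [h1, mul_zero]
        rw [mul_add, mul_inv_cancel₀ hα] at h2
        linear_combination -h2
      · rcases cases_of_RR ht hAn with h | h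
        · have hc : n * ww F = ww F * n := by
            calc n * ww F = (ww F * n * (ww F)⁻¹) * ww F := by rw [h]
              _ = ww F * n := by group
          have h1 : B ∈ Subgroup.normalizer
              ((Subgroup.centralizer {ww F} : Subgroup (SL2 F)) : Set (SL2 F)) := by
            rw [← centralizer_eq_of_commute hAZ hn hc]
            exact (mem_normalizer_centralizer_iff ht).2 (cases_of_RR ht hBn)
          rcases (mem_normalizer_centralizer_iff ht').1 h1 with h2 | h2
          · left; left
            show B ∈ (Subgroup.centralizer {ww F} : Subgroup (SL2 F))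
            rw [mem_centralizer_iff]
            calc B * ww F = B * ww F * B⁻¹ * B := by group
              _ = ww F * B := by rw [h2]
          · left; right
            exact tr_eq_zero_of_inverts ht' h2
        · rcases cases_of_RR ht hBn with h' | h'
          · right
            apply tr_eq_zero_of_inverts ht
            calc ww F * B * n * (ww F * B)⁻¹ = ww F * (B * n * B⁻¹) * (ww F)⁻¹ := by group
              _ = n⁻¹ := by rw [h', h]
          · left; right
            exact tr_eq_zero_of_inverts ht h'
    · have t1 : F3 (tr B) := tr_of_sq_or_cube (h B (mk_mem_right _ B))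
      have t2 : F3 (tr (ww F * B)) := tr_of_sq_or_cube (h _ (mk_mem_mul _ B))
      rcases t1 with h1 | h1
      · left; left; right; exact h1
      · rcases t2 with h2 | h2
        · left; right; exact h2
        · right; exact ⟨h1, h2⟩
  · rintro (((hB | hB) | hB) | ⟨h1, h2⟩)
    · apply solP_of_sol
      apply sol_of_RR' hAZ (RR_of_commute (by group)) (RR_of_commute _)
      have hB' := mem_centralizer_iff.1 hB
      rw [hB']; group
    · have hBB : B * B = -1 := sq_eq_neg_one_of_tr_eq_zero hB
      have hBi := inv_eq_neg_of_sq hBB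
      apply solP_of_sol
      by_cases hn : ww F * B ∈ Subgroup.center (SL2 F)
      · apply sol_of_RR' hAZ (RR_of_commute (by group)) (RR_of_commute _)
        have h3 := Subgroup.mem_center_iff.1 hn (ww F)
        have h4 : B * ww F = ww F * B := by
          apply mul_left_cancel (a := ww F)
          calc ww F * (B * ww F) = ww F * B * ww F := by group
            _ = ww F * (ww F * B) := h3.symm
        rw [h4]; group
      · apply sol_of_RR' hn (RR_of_inverts _) (RR_of_inverts _)
        · rw [_root_.mul_inv_rev, hXi, hBi]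
          calc ww F * (ww F * B) * -ww F = -((ww F * ww F) * B * ww F) := by
                rw [mul_neg]; group
            _ = -B * -ww F := by rw [hXX]; simp
        · rw [_root_.mul_inv_rev, hXi, hBi]
          calc B * (ww F * B) * -B = -(B * ww F * (B * B)) := by
                rw [mul_neg]; group
            _ = -B * -ww F := by rw [hBB]; simp
    · have hX : ww F * B * (ww F * B) = -1 := sq_eq_neg_one_of_tr_eq_zero hB
      apply solP_of_sol
      by_cases hBZ : B ∈ Subgroup.center (SL2 F)
      · apply sol_of_RR' hAZ (RR_of_commute (by group)) (RR_of_commute _)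
        have h3 := Subgroup.mem_center_iff.1 hBZ (ww F)
        rw [← h3]; group
      · apply sol_of_RR' hBZ (RR_of_inverts _) (RR_of_commute (by group))
        rw [hXi]
        calc ww F * B * -ww F = -((ww F * B * (ww F * B)) * B⁻¹) := by
              rw [mul_neg]; group
          _ = B⁻¹ := by rw [hX]; simp
    · unfold SolP
      apply sol_of_sol_mul
      rw [← QuotientGroup.mk_mul]
      apply solP_of_traces h1 h2
      rw [tr_mul_mul_self, tr_ww, sub_zero]
      exact F3.mul (Or.inr h1) (Or.inr h2)

end Cfsg.Agent.Lib.Helper6Sol
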