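import Mathlib
import Cfsg.Agent.Lib.Helper6SolB7

/-!
# Solubilizers in `PSL₂(F)`, characteristic 3: counting for involutions
-/

set_option autoImplicit false

namespace Cfsg.Agent.Lib.Helper6Sol

open Matrix Cfsg.Agent.Lib.Helper46SL2 Cfsg.Agent.Lib.Helper41SL2 Cfsg.Agent.Lib.Helper41Dk
  Cfsg.Agent.Lib.Helper6DkCor

local notation "SL2" => Matrix.SpecialLinearGroup (Fin 2)
local notation "PSL2" => Matrix.ProjectiveSpecialLinearGroup (Fin 2)

theorem ncard_three' {α : Type*} [Finite α] (X Y W : Set α) :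
    (X ∪ Y ∪ W).ncard + (X ∩ Y).ncard + (X ∩ W).ncard + (Y ∩ W).ncard =
      X.ncard + Y.ncard + W.ncard + (X ∩ Y ∩ W).ncard := by
  have h1 := Set.ncard_union_add_ncard_inter X Y (Set.toFinite _) (Set.toFinite _)
  have h2 := Set.ncard_union_add_ncard_inter (X ∪ Y) W (Set.toFinite _) (Set.toFinite _)
  have h3 := Set.ncard_union_add_ncard_inter (X ∩ W) (Y ∩ W) (Set.toFinite _) (Set.toFinite _)
  rw [Set.union_inter_distrib_right] at h2
  have e : X ∩ W ∩ (Y ∩ W) = X ∩ Y ∩ W := by
    ext z; simp only [Set.mem_inter_iff]; tauto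
  rw [e] at h3
  omega

variable {F : Type*} [Field F]

theorem mem_cent_ww_iff {B : SL2 F} :
    B ∈ (Subgroup.centralizer {ww F} : Subgroup (SL2 F)) ↔ B 0 0 = B 1 1 ∧ B 0 1 = - B 1 0 := by
  have e00 : (ww F) 0 0 = 0 := rfl
  have e01 : (ww F) 0 1 = 1 := rfl
  have e10 : (ww F) 1 0 = -1 := rfl
  have e11 : (ww F) 1 1 = 0 := rfl
  rw [mem_centralizer_iff]
  constructor
  · intro h
    have h00 := congrArg (fun B : SL2 F => B 0 0) h
    have h01 := congrArg (fun B : SL2 F => B 0 1) h
    simp only [mul_00, mul_01, e00, e01, e10, e11] at h00 h01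
    exact ⟨by linear_combination h01, by linear_combination -h00⟩
  · rintro ⟨h1, h2⟩
    apply ext2 <;> simp only [mul_00, mul_01, mul_10, mul_11, e00, e01, e10, e11, h1, h2] <;> ring

theorem nonSplit_zero (hm1 : ¬ IsSquare (-1 : F)) : NonSplit (0 : F) := by
  intro r h
  apply hm1
  exact ⟨r, by linear_combination -h⟩

theorem card_cent_ww [Fintype F] (hm1 : ¬ IsSquare (-1 : F)) :
    Nat.card (Subgroup.centralizer {ww F} : Subgroup (SL2 F)) = Fintype.card F + 1 :=
  card_centralizer_nonSplit (by rw [tr_ww]; exact nonSplit_zero hm1)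

theorem card_ne_zero [Fintype F] : Nat.card {β : F // β ≠ 0} = Fintype.card F - 1 := by
  rw [← Nat.card_congr unitsEquivNeZero, Nat.card_units, Nat.card_eq_fintype_card]

theorem card_tr_zero' [Fintype F] (hm1 : ¬ IsSquare (-1 : F)) :
    Nat.card {y : SL2 F // tr y = 0} = Fintype.card F * (Fintype.card F - 1) := by
  have hne : ∀ y : SL2 F, tr y = 0 → y 0 1 ≠ 0 := by
    intro y hy h0
    have d := det2 y
    have hy' : y 0 0 + y 1 1 = 0 := hy
    apply hm1
    refine ⟨y 0 0, ?_⟩
    rw [h0] at d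
    linear_combination d - y 0 0 * hy'
  have hbij : Function.Bijective (fun y : {y : SL2 F // tr y = 0} =>
      ((y.1 0 0, ⟨y.1 0 1, hne y.1 y.2⟩) : F × {β : F // β ≠ 0})) := by
    constructor
    · rintro ⟨y, hy⟩ ⟨y', hy'⟩ h
      simp only [Prod.mk.injEq, Subtype.mk.injEq] at h
      obtain ⟨h00, h01⟩ := h
      have t : y 0 0 + y 1 1 = 0 := hy
      have t' : y' 0 0 + y' 1 1 = 0 := hy'
      have h11 : y 1 1 = y' 1 1 := by linear_combination t - t' - h00
      have d := det2 y
      have d' := det2 y'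
      have h10 : y 1 0 = y' 1 0 := by
        apply mul_left_cancel₀ (hne y hy)
        rw [← h00, ← h11, ← h01] at d'
        linear_combination d' - d
      apply Subtype.ext
      exact ext2 h00 h01 h10 h11
    · rintro ⟨α, ⟨β, hβ⟩⟩
      refine ⟨⟨mk2 α β ((-α ^ 2 - 1) / β) (-α) (by rw [mul_div_cancel₀ _ hβ]; ring), ?_⟩, rfl⟩
      show α + -α = 0
      ring
  rw [Nat.card_congr (Equiv.ofBijective _ hbij), Nat.card_prod, card_ne_zero,
    Nat.card_eq_fintype_card]

theorem card_circle [Fintype F] (hm1 : ¬ IsSquare (-1 : F)) :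
    Nat.card {p : F × F // p.1 ^ 2 + p.2 ^ 2 = 1} = Fintype.card F + 1 := by
  rw [← card_cent_ww hm1]
  symm
  have hmem : ∀ Z : (Subgroup.centralizer {ww F} : Subgroup (SL2 F)),
      (Z.1 0 0) ^ 2 + (Z.1 1 0) ^ 2 = 1 := by
    intro Z
    obtain ⟨h1, h2⟩ := mem_cent_ww_iff.1 Z.2
    have d := det2 Z.1
    rw [← h1, h2] at d
    linear_combination d
  have hbij : Function.Bijective (fun Z : (Subgroup.centralizer {ww F} : Subgroup (SL2 F)) =>
      (⟨(Z.1 0 0, Z.1 1 0), hmem Z⟩ : {p : F × F // p.1 ^ 2 + p.2 ^ 2 = 1})) := by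
    constructor
    · rintro ⟨Z, hZ⟩ ⟨Z', hZ'⟩ h
      simp only [Subtype.mk.injEq, Prod.mk.injEq] at h
      obtain ⟨h00, h10⟩ := h
      obtain ⟨h1, h2⟩ := mem_cent_ww_iff.1 hZ
      obtain ⟨h1', h2'⟩ := mem_cent_ww_iff.1 hZ'
      apply Subtype.ext
      exact ext2 h00 (by rw [h2, h2', h10]) h10 (by rw [← h1, ← h1', h00])
    · rintro ⟨⟨u, v⟩, huv⟩
      have huv' : u ^ 2 + v ^ 2 = 1 := huv
      refine ⟨⟨mk2 u (-v) v u (by linear_combination huv'), ?_⟩, rfl⟩
      rw [mem_cent_ww_iff]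
      exact ⟨rfl, rfl⟩
  exact Nat.card_congr (Equiv.ofBijective _ hbij)

variable [CharP F 3]

/-- The auxiliary matrix `[[1,1],[1,-1]]` of determinant `-2 = 1`. -/
noncomputable def JJ (F : Type*) [Field F] [CharP F 3] : SL2 F :=
  mk2 1 1 1 (-1) (by linear_combination -(three_eq_zero : (3 : F) = 0))

theorem card_tr_zero_ww [Fintype F] (hm1 : ¬ IsSquare (-1 : F)) :
    Nat.card {y : SL2 F // tr (ww F * y) = 0} = Fintype.card F * (Fintype.card F - 1) := by
  rw [← card_tr_zero' hm1]
  exact Nat.card_congr ((Equiv.mulLeft (ww F)).subtypeEquiv (fun y => Iff.rfl))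

theorem card_inter_TT [Fintype F] (hm1 : ¬ IsSquare (-1 : F)) :
    Nat.card {y : SL2 F // tr y = 0 ∧ tr (ww F * y) = 0} = Fintype.card F + 1 := by
  rw [← card_cent_ww hm1]
  symm
  refine Nat.card_congr ((Equiv.mulLeft (JJ F)).subtypeEquiv (fun y => ?_))
  have e00 : (JJ F) 0 0 = 1 := rfl
  have e01 : (JJ F) 0 1 = 1 := rfl
  have e10 : (JJ F) 1 0 = 1 := rfl
  have e11 : (JJ F) 1 1 = -1 := rfl
  have h3 : (3 : F) = 0 := three_eq_zero
  rw [mem_cent_ww_iff, Equiv.coe_mulLeft, tr_ww_mul]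
  simp only [tr, mul_00, mul_01, mul_10, mul_11, e00, e01, e10, e11]
  constructor
  · rintro ⟨h1, h2⟩
    rw [h1, h2]
    constructor <;> ring
  · rintro ⟨h1, h2⟩
    constructor
    · linear_combination -h1 - h2 + (y 0 0 - y 1 1) * h3
    · linear_combination -h1 + h2 + (y 0 1 + y 1 0) * h3

theorem card_S4 [Fintype F] (hm1 : ¬ IsSquare (-1 : F)) :
    Nat.card {y : SL2 F // (tr y = 1 ∨ tr y = -1) ∧ (tr (ww F * y) = 1 ∨ tr (ww F * y) = -1)} =
      4 * (Fintype.card F + 1) := by
  have h3 : (3 : F) = 0 := three_eq_zero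
  have hsq : ∀ e : F, (e = 1 ∨ e = -1) → e ^ 2 = 1 := by
    rintro e (rfl | rfl) <;> ring
  have hmem : ∀ y : {y : SL2 F // (tr y = 1 ∨ tr y = -1) ∧
      (tr (ww F * y) = 1 ∨ tr (ww F * y) = -1)},
      (y.1 1 1 - y.1 0 0) ^ 2 + (y.1 1 0 + y.1 0 1) ^ 2 = 1 := by
    rintro ⟨y, h1, h2⟩
    have s1 := hsq _ h1
    have s2 := hsq _ h2
    rw [tr_ww_mul] at s2
    have d := det2 y
    simp only [tr] at s1
    show (y 1 1 - y 0 0) ^ 2 + (y 1 0 + y 0 1) ^ 2 = 1
    linear_combination s1 + s2 - 4 * d - h3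
  have hbij : Function.Bijective (fun y : {y : SL2 F // (tr y = 1 ∨ tr y = -1) ∧
      (tr (ww F * y) = 1 ∨ tr (ww F * y) = -1)} =>
      (((⟨tr y.1, y.2.1⟩ : ↥({1, -1} : Set F)), (⟨tr (ww F * y.1), y.2.2⟩ : ↥({1, -1} : Set F))),
        (⟨(y.1 1 1 - y.1 0 0, y.1 1 0 + y.1 0 1), hmem y⟩ :
          {p : F × F // p.1 ^ 2 + p.2 ^ 2 = 1}))) := by
    constructor
    · rintro ⟨y, hy⟩ ⟨y', hy'⟩ h
      simp only [Prod.mk.injEq, Subtype.mk.injEq, tr_ww_mul] at h
      simp only [tr] at h
      obtain ⟨⟨h1, h2⟩, h3', h4⟩ := h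
      replace h1 := congrArg Subtype.val h1
      simp only at h1
      apply Subtype.ext
      apply ext2
      · linear_combination -h1 + h3' + (y 0 0 - y' 0 0) * h3
      · linear_combination h2 - h4 + (y 0 1 - y' 0 1) * h3
      · linear_combination -h2 - h4 + (y 1 0 - y' 1 0) * h3
      · linear_combination -h1 - h3' + (y 1 1 - y' 1 1) * h3
    · rintro ⟨⟨⟨e₁, he₁⟩, ⟨e₂, he₂⟩⟩, ⟨⟨c, d⟩, hcd⟩⟩
      have s1 := hsq _ he₁
      have s2 := hsq _ he₂
      have hcd' : c ^ 2 + d ^ 2 = 1 := hcd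
      have t1 : tr (mk2 (c - e₁) (e₂ - d) (-d - e₂) (-e₁ - c)
          (by linear_combination s1 + s2 - hcd')) = e₁ := by
        show (c - e₁) + (-e₁ - c) = e₁
        linear_combination -e₁ * h3
      have t2 : tr (ww F * mk2 (c - e₁) (e₂ - d) (-d - e₂) (-e₁ - c)
          (by linear_combination s1 + s2 - hcd')) = e₂ := by
        rw [tr_ww_mul]
        show (-d - e₂) - (e₂ - d) = e₂
        linear_combination -e₂ * h3
      refine ⟨⟨mk2 (c - e₁) (e₂ - d) (-d - e₂) (-e₁ - c)
          (by linear_combination s1 + s2 - hcd'), ?_, ?_⟩, ?_⟩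
      · rw [t1]; exact he₁
      · rw [t2]; exact he₂
      · simp only [Prod.mk.injEq, Subtype.mk.injEq]
        refine ⟨⟨Subtype.ext t1, Subtype.ext t2⟩, ?_, ?_⟩
        · show (-e₁ - c) - (c - e₁) = c
          linear_combination -c * h3
        · show (-d - e₂) + (e₂ - d) = d
          linear_combination -d * h3
  rw [Nat.card_congr (Equiv.ofBijective _ hbij), Nat.card_prod, Nat.card_prod, card_pm,
    card_circle hm1]

theorem card_solP_ww [Fintype F] (hm1 : ¬ IsSquare (-1 : F)) :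
    Nat.card {B : SL2 F // SolP (ww F) B} = 2 * Fintype.card F * (Fintype.card F + 1) := by
  have h3 : (3 : F) = 0 := three_eq_zero
  have e : {B : SL2 F | SolP (ww F) B} =
      ((((Subgroup.centralizer {ww F} : Subgroup (SL2 F)) : Set (SL2 F)) ∪
      {y | tr y = 0} ∪ {y | tr (ww F * y) = 0}) ∪
      {y | (tr y = 1 ∨ tr y = -1) ∧ (tr (ww F * y) = 1 ∨ tr (ww F * y) = -1)}) := by
    ext B; exact solP_ww_iff hm1 B
  have e' : Nat.card {B : SL2 F // SolP (ww F) B} = {B : SL2 F | SolP (ww F) B}.ncard :=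
    Nat.card_coe_set_eq _
  rw [e', e]
  have c1 : ((Subgroup.centralizer {ww F} : Subgroup (SL2 F)) : Set (SL2 F)).ncard =
      Fintype.card F + 1 := by
    rw [← Nat.card_coe_set_eq]; exact card_cent_ww hm1
  have c2 : {y : SL2 F | tr y = 0}.ncard = Fintype.card F * (Fintype.card F - 1) := by
    rw [← Nat.card_coe_set_eq]; exact card_tr_zero' hm1
  have c3 : {y : SL2 F | tr (ww F * y) = 0}.ncard = Fintype.card F * (Fintype.card F - 1) := by
    rw [← Nat.card_coe_set_eq]; exact card_tr_zero_ww hm1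
  have c4 : {y : SL2 F | (tr y = 1 ∨ tr y = -1) ∧
      (tr (ww F * y) = 1 ∨ tr (ww F * y) = -1)}.ncard = 4 * (Fintype.card F + 1) := by
    rw [← Nat.card_coe_set_eq]; exact card_S4 hm1
  have c23 : ({y : SL2 F | tr y = 0} ∩ {y : SL2 F | tr (ww F * y) = 0}).ncard =
      Fintype.card F + 1 := by
    rw [← Nat.card_coe_set_eq]; exact card_inter_TT hm1
  have hne : ∀ X : SL2 F, X ≠ -X := fun X => ne_neg_self two_ne_zero3 X
  have c12 : (((Subgroup.centralizer {ww F} : Subgroup (SL2 F)) : Set (SL2 F)) ∩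
      {y : SL2 F | tr y = 0}).ncard = 2 := by
    have : (((Subgroup.centralizer {ww F} : Subgroup (SL2 F)) : Set (SL2 F)) ∩
      {y : SL2 F | tr y = 0}) = {ww F, -ww F} := by
      ext y
      simp only [Set.mem_inter_iff, SetLike.mem_coe, mem_cent_ww_iff, Set.mem_ofPred_eq,
        Set.mem_insert_iff, Set.mem_singleton_iff]
      constructor
      · rintro ⟨⟨h1, h2⟩, h0⟩
        have h0' : y 0 0 + y 1 1 = 0 := h0
        have a0 : y 0 0 = 0 := by linear_combination -h0' - h1 + y 0 0 * h3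
        have a1 : y 1 1 = 0 := by rw [← h1, a0]
        have d := det2 y
        rw [a0, a1, h2] at d
        have d' : (y 1 0 - 1) * (y 1 0 + 1) = 0 := by linear_combination d
        rcases mul_eq_zero.1 d' with h | h
        · right
          have h10 : y 1 0 = 1 := by linear_combination h
          apply ext2
          · rw [a0]; show (0 : F) = -0; ring
          · rw [h2, h10]; rfl
          · rw [h10]; show (1 : F) = - -1; ring
          · rw [a1]; show (0 : F) = -0; ring
        · left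
          have h10 : y 1 0 = -1 := by linear_combination h
          apply ext2
          · rw [a0]; rfl
          · rw [h2, h10]; show (- -1 : F) = 1; ring
          · rw [h10]; rfl
          · rw [a1]; rfl
      · rintro (rfl | rfl)
        · refine ⟨⟨rfl, ?_⟩, tr_ww⟩
          show (1 : F) = - -1
          ring
        · refine ⟨⟨rfl, ?_⟩, ?_⟩
          · show (-1 : F) = - - -1
            ring
          · show (-0 : F) + -0 = 0
            ring
    rw [this, Set.ncard_pair (hne _)]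
  have c13 : (((Subgroup.centralizer {ww F} : Subgroup (SL2 F)) : Set (SL2 F)) ∩
      {y : SL2 F | tr (ww F * y) = 0}).ncard = 2 := by
    have : (((Subgroup.centralizer {ww F} : Subgroup (SL2 F)) : Set (SL2 F)) ∩
      {y : SL2 F | tr (ww F * y) = 0}) = {1, -1} := by
      ext y
      simp only [Set.mem_inter_iff, SetLike.mem_coe, mem_cent_ww_iff, Set.mem_ofPred_eq,
        Set.mem_insert_iff, Set.mem_singleton_iff, tr_ww_mul]
      constructor
      · rintro ⟨⟨h1, h2⟩, h0⟩
        have a0 : y 1 0 = 0 := by linear_combination -h0 - h2 + y 1 0 * h3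
        have a1 : y 0 1 = 0 := by rw [h2, a0]; ring
        have d := det2 y
        rw [a0, a1, ← h1] at d
        have d' : (y 0 0 - 1) * (y 0 0 + 1) = 0 := by linear_combination d
        rcases mul_eq_zero.1 d' with h | h
        · left
          have h10 : y 0 0 = 1 := by linear_combination h
          apply ext2
          · rw [h10]; rfl
          · rw [a1]; rfl
          · rw [a0]; rfl
          · rw [← h1, h10]; rfl
        · right
          have h10 : y 0 0 = -1 := by linear_combination h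
          apply ext2
          · rw [h10]; rfl
          · rw [a1]; show (0 : F) = -0; ring
          · rw [a0]; show (0 : F) = -0; ring
          · rw [← h1, h10]; rfl
      · rintro (rfl | rfl)
        · refine ⟨⟨rfl, ?_⟩, ?_⟩
          · show (0 : F) = -0
            ring
          · show (0 : F) - 0 = 0
            ring
        · refine ⟨⟨rfl, ?_⟩, ?_⟩
          · show (-0 : F) = - -0
            ring
          · show (-0 : F) - -0 = 0
            ring
    rw [this, Set.ncard_pair (hne _)]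
  have c123 : (((Subgroup.centralizer {ww F} : Subgroup (SL2 F)) : Set (SL2 F)) ∩
      {y : SL2 F | tr y = 0} ∩ {y : SL2 F | tr (ww F * y) = 0}).ncard = 0 := by
    rw [Set.ncard_eq_zero (Set.toFinite _), Set.eq_empty_iff_forall_notMem]
    rintro y ⟨⟨hC, h0⟩, h0''⟩
    obtain ⟨h1, h2⟩ := mem_cent_ww_iff.1 hC
    have h0' : y 0 0 + y 1 1 = 0 := h0
    have h00 : y 1 0 - y 0 1 = 0 := by rw [← tr_ww_mul]; exact h0''
    have a0 : y 0 0 = 0 := by linear_combination -h0' - h1 + y 0 0 * h3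
    have b0 : y 1 0 = 0 := by linear_combination -h00 - h2 + y 1 0 * h3
    have d := det2 y
    rw [a0, b0] at d
    apply one_ne_zero (α := F)
    linear_combination -d
  have hdisj : Disjoint ((((Subgroup.centralizer {ww F} : Subgroup (SL2 F)) : Set (SL2 F)) ∪
      {y | tr y = 0} ∪ {y | tr (ww F * y) = 0}))
      {y | (tr y = 1 ∨ tr y = -1) ∧ (tr (ww F * y) = 1 ∨ tr (ww F * y) = -1)} := by
    have hsq : ∀ e : F, (e = 1 ∨ e = -1) → e ^ 2 = 1 := by
      rintro e (rfl | rfl) <;> ring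
    rw [Set.disjoint_left]
    rintro y ((hC | h0) | h0) ⟨h1, h2⟩
    · obtain ⟨k1, k2⟩ := mem_cent_ww_iff.1 hC
      have s1 := hsq _ h1
      have s2 := hsq _ h2
      rw [tr_ww_mul] at s2
      simp only [tr] at s1
      have d := det2 y
      rw [← k1] at s1 d
      rw [k2] at s2 d
      apply one_ne_zero (α := F)
      linear_combination -s1 - s2 + 4 * d + h3
    · have s1 := hsq _ h1
      have h0' : tr y = 0 := h0
      rw [h0'] at s1
      apply one_ne_zero (α := F)
      linear_combination -s1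
    · have s2 := hsq _ h2
      have h0' : tr (ww F * y) = 0 := h0
      rw [h0'] at s2
      apply one_ne_zero (α := F)
      linear_combination -s2
  rw [Set.ncard_union_eq hdisj (Set.toFinite _) (Set.toFinite _), c4]
  have key := ncard_three' ((Subgroup.centralizer {ww F} : Subgroup (SL2 F)) : Set (SL2 F))
    {y : SL2 F | tr y = 0} {y : SL2 F | tr (ww F * y) = 0}
  rw [c1, c2, c3, c12, c13, c23, c123] at key
  have hq : 1 < Fintype.card F := Fintype.one_lt_card
  obtain ⟨k, hk⟩ : ∃ k, Fintype.card F = k + 1 := ⟨Fintype.card F - 1, by omega⟩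
  rw [hk] at key ⊢
  simp only [Nat.add_sub_cancel] at key
  nlinarith [key]

end Cfsg.Agent.Lib.Helper6Sol
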