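import Mathlib
import Cfsg.Agent.Lib.Helper6SolB8
import Cfsg.Agent.Lib.Helper6Sol5

/-!
# Solubilizers in `PSL₂(F)`, characteristic 3: the count
-/

set_option autoImplicit false

namespace Cfsg.Agent.Lib.Helper6Sol

open Matrix Cfsg.Agent.Lib.Helper46SL2 Cfsg.Agent.Lib.Helper41SL2 Cfsg.Agent.Lib.Helper41Dk
  Cfsg.Agent.Lib.Helper6DkCor

local notation "SL2" => Matrix.SpecialLinearGroup (Fin 2)
local notation "PSL2" => Matrix.ProjectiveSpecialLinearGroup (Fin 2)

variable {F : Type*} [Field F]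

theorem charP_three_of_card [Fintype F] {k : ℕ} (hF : Fintype.card F = 3 ^ k) : CharP F 3 := by
  obtain ⟨c, hc⟩ := CharP.exists F
  have hcp : c.Prime := (CharP.char_is_prime_or_zero F c).resolve_right (by
    intro h0
    subst h0
    have := CharP.charP_to_charZero F
    exact not_finite F |>.elim) 
  have h1 : c ∣ Fintype.card F := card_dvd_of_char c
  rw [hF] at h1
  have h2 := (Nat.prime_dvd_prime_iff_eq hcp Nat.prime_three).1 (hcp.dvd_of_dvd_pow h1)
  rw [← h2]
  exact hc

theorem card_lift [Fintype F] (hodd : Odd (Fintype.card F)) (X : SL2 F) :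
    Nat.card {B : SL2 F // SolP X B} =
      2 * Nat.card {y : PSL2 F // Sol (QuotientGroup.mk X : PSL2 F) y} := by
  have e := QuotientGroup.preimageMkEquivSubgroupProdSet (Subgroup.center (SL2 F))
    {y : PSL2 F | Sol (QuotientGroup.mk X : PSL2 F) y}
  have h := Nat.card_congr e
  rw [Nat.card_prod, Cfsg.Agent.Lib.Helper7SL.card_center_SL_two hodd] at h
  exact h

theorem card_sol_isConj {X Y : SL2 F} (h : IsConj X Y) :
    Nat.card {y : PSL2 F // Sol (QuotientGroup.mk X : PSL2 F) y} =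
      Nat.card {y : PSL2 F // Sol (QuotientGroup.mk Y : PSL2 F) y} := by
  obtain ⟨c, hc⟩ := isConj_iff.1 h
  rw [← card_sol_equiv (MulAut.conj (QuotientGroup.mk c : PSL2 F)) (QuotientGroup.mk X),
    MulAut.conj_apply, ← hc]
  rfl

theorem not_isSquare_neg_one_of_card [Fintype F] {p : ℕ} (hodd : Odd p)
    (hF : Fintype.card F = 3 ^ p) : ¬ IsSquare (-1 : F) := by
  rw [FiniteField.isSquare_neg_one_iff, hF]
  obtain ⟨k, rfl⟩ := hodd
  intro h
  apply h
  rw [pow_succ, pow_mul, Nat.mul_mod, Nat.pow_mod]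
  norm_num

theorem orderOf_cases {d q : ℕ} (hq : 3 ∣ q) (hq0 : 0 < q) (h1 : d ∣ q - 1 ∨ d ∣ q + 1)
    (h3 : d ∣ 3) : d = 1 := by
  rcases (Nat.dvd_prime Nat.prime_three).1 h3 with h | h
  · exact h
  · subst h
    rcases h1 with h1 | h1 <;> omega

variable [CharP F 3]

theorem card_sol_PSL2_three [Fintype F] (hm1 : ¬ IsSquare (-1 : F)) (x : PSL2 F) :
    (orderOf x = 2 → Nat.card {y : PSL2 F // Sol x y} = Fintype.card F * (Fintype.card F + 1)) ∧
    (orderOf x = 3 → 2 * Nat.card {y : PSL2 F // Sol x y} =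
      Fintype.card F * (Fintype.card F + 5)) ∧
    (x ≠ 1 → orderOf x ≠ 2 → orderOf x ∣ Fintype.card F - 1 →
      Nat.card {y : PSL2 F // Sol x y} = Fintype.card F * (Fintype.card F - 1)) ∧
    (x ≠ 1 → orderOf x ≠ 2 → orderOf x ∣ Fintype.card F + 1 →
      Nat.card {y : PSL2 F // Sol x y} = Fintype.card F + 1) := by
  have : Fact (Nat.Prime 3) := ⟨Nat.prime_three⟩
  obtain ⟨X, rfl⟩ := QuotientGroup.mk_surjective x
  have h2 : (2 : F) ≠ 0 := two_ne_zero3
  have hq3 : 3 ∣ Fintype.card F := card_dvd_of_char 3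
  have hq0 : 0 < Fintype.card F := Fintype.card_pos
  have hodd : Odd (Fintype.card F) := by
    rw [← Nat.not_even_iff_odd]
    intro he
    have h4 := FiniteField.even_card_iff_char_two.2 (Nat.even_iff.1 he)
    have h5 : ringChar F = 3 := ringChar.eq F 3
    omega
  have hord : orderOf (QuotientGroup.mk X : PSL2 F) ∣ orderOf X :=
    orderOf_map_dvd (QuotientGroup.mk' (Subgroup.center (SL2 F))) X
  have hself : X ∈ (Subgroup.centralizer {X} : Subgroup (SL2 F)) := mem_centralizer_iff.2 rfl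
  have htr0 : (QuotientGroup.mk X : PSL2 F) ≠ 1 → orderOf (QuotientGroup.mk X : PSL2 F) ≠ 2 →
      tr X ≠ 0 := by
    intro h1 h2' ht
    have hXX := sq_eq_neg_one_of_tr_eq_zero ht
    have h3 : (QuotientGroup.mk X : PSL2 F) ^ 2 = 1 := by
      rw [mk_pow_eq_one_iff, mem_center_iff_eq, sq]
      exact Or.inr hXX
    rcases (Nat.dvd_prime Nat.prime_two).1 (orderOf_dvd_of_pow_eq_one h3) with h | h
    · exact h1 (orderOf_eq_one_iff.1 h)
    · exact h2' h
  have htr4 : (QuotientGroup.mk X : PSL2 F) ≠ 1 →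
      (orderOf (QuotientGroup.mk X : PSL2 F) ∣ Fintype.card F - 1 ∨
        orderOf (QuotientGroup.mk X : PSL2 F) ∣ Fintype.card F + 1) → tr X ^ 2 ≠ 4 := by
    intro h1 hd ht
    have h3 : (QuotientGroup.mk X : PSL2 F) ^ 3 = 1 := by
      rw [mk_pow_eq_one_iff]
      exact pow_char_mem_center 3 X ht
    exact h1 (orderOf_eq_one_iff.1 (orderOf_cases hq3 hq0 hd (orderOf_dvd_of_pow_eq_one h3)))
  have hboth : (QuotientGroup.mk X : PSL2 F) ≠ 1 → orderOf (QuotientGroup.mk X : PSL2 F) ≠ 2 →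
      orderOf (QuotientGroup.mk X : PSL2 F) ∣ Fintype.card F - 1 →
      orderOf (QuotientGroup.mk X : PSL2 F) ∣ Fintype.card F + 1 → False := by
    intro hA1 hA2 h1 h2
    have h3 : orderOf (QuotientGroup.mk X : PSL2 F) ∣ 2 := by
      have := Nat.dvd_sub h2 h1
      have e : Fintype.card F + 1 - (Fintype.card F - 1) = 2 := by omega
      rwa [e] at this
    rcases (Nat.dvd_prime Nat.prime_two).1 h3 with h | h
    · exact hA1 (orderOf_eq_one_iff.1 h)
    · exact hA2 h
  refine ⟨?_, ?_, ?_, ?_⟩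
  · intro h
    have h1 : (QuotientGroup.mk X : PSL2 F) ≠ 1 := by
      intro h1
      rw [h1, orderOf_one] at h
      norm_num at h
    have hsq : (QuotientGroup.mk X : PSL2 F) ^ 2 = 1 := by
      have := pow_orderOf_eq_one (QuotientGroup.mk X : PSL2 F)
      rwa [h] at this
    have hXX := sq_eq_neg_one_of_proj h2 hsq h1
    have ht := tr_eq_zero_of_sq hXX
    rw [card_sol_isConj (isConj_of_tr_eq_zero h2 ht tr_ww)]
    have h5 := card_lift hodd (ww F)
    rw [card_solP_ww hm1] at h5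
    have : 2 * (Fintype.card F * (Fintype.card F + 1)) = 2 * Nat.card
      {y : PSL2 F // Sol (QuotientGroup.mk (ww F) : PSL2 F) y} := by rw [← h5]; ring
    omega
  · intro h
    have h1 : (QuotientGroup.mk X : PSL2 F) ≠ 1 := by
      intro h1
      rw [h1, orderOf_one] at h
      norm_num at h
    have hcb : (QuotientGroup.mk X : PSL2 F) ^ 3 = 1 := by
      have := pow_orderOf_eq_one (QuotientGroup.mk X : PSL2 F)
      rwa [h] at this
    have hXZ : X ∉ Subgroup.center (SL2 F) := by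
      rwa [Ne, mk_eq_one_iff] at h1
    rw [mk_pow_eq_one_iff, mem_center_iff_eq] at hcb
    obtain ⟨X', hX', hmk, hZ'⟩ : ∃ X' : SL2 F, X' ^ 3 = 1 ∧
        (QuotientGroup.mk X' : PSL2 F) = QuotientGroup.mk X ∧ X' ∉ Subgroup.center (SL2 F) := by
      rcases hcb with hcb | hcb
      · exact ⟨X, hcb, rfl, hXZ⟩
      · refine ⟨-X, ?_, ?_, neg_not_mem_center hXZ⟩
        · rw [Odd.neg_pow (by decide), hcb, neg_neg]
        · rw [mk_eq_mk_iff]
          right
          rw [neg_neg]
    rw [← hmk]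
    have ht : tr X' = 2 := tr_eq_two_of_pow_char 3 1 (by rw [pow_one]; exact hX')
    obtain ⟨b, hb, hc⟩ := exists_isConj_uu hZ' ht
    rw [card_sol_isConj hc, ← card_lift hodd, card_solP_uu hm1 hb]
  · intro h1 h2' hd
    have ht0 := htr0 h1 h2'
    have ht4 := htr4 h1 (Or.inl hd)
    rcases split_or_nonSplit ht4 with ⟨a, ha0, ha, hta⟩ | hNS
    · rw [card_sol_isConj (isConj_dg a ha0 ha hta)]
      have h5 := card_lift hodd (dg a ha0)
      rw [card_solP_dg hm1 ha0 ha] at h5
      have : 2 * (Fintype.card F * (Fintype.card F - 1)) = 2 * Nat.card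
        {y : PSL2 F // Sol (QuotientGroup.mk (dg a ha0) : PSL2 F) y} := by rw [← h5]; ring
      omega
    · exfalso
      have h3 := Subgroup.orderOf_dvd_natCard _ hself
      rw [card_centralizer_nonSplit hNS] at h3
      exact hboth h1 h2' hd (hord.trans h3)
  · intro h1 h2' hd
    have ht0 := htr0 h1 h2'
    have ht4 := htr4 h1 (Or.inr hd)
    rcases split_or_nonSplit ht4 with ⟨a, ha0, ha, hta⟩ | hNS
    · exfalso
      have h3 := Subgroup.orderOf_dvd_natCard _ hself
      rw [card_centralizer_split ha0 ha hta] at h3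
      exact hboth h1 h2' (hord.trans h3) hd
    · have h5 := card_lift hodd X
      rw [card_solP_nonSplit hm1 hNS ht0] at h5
      omega

end Cfsg.Agent.Lib.Helper6Sol
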