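import Mathlib
import Cfsg.Agent.Lib.Helper71ZaDefs

/-! Project 71 (Zassenhaus), piece G4a. -/

set_option autoImplicit false

namespace Cfsg.Agent.Lib.Helper70ZaG4a

open Cfsg.Agent.Lib.Helper71ZaDefs Subgroup

set_option maxRecDepth 100000 in
theorem a4_aux : ∀ x : alternatingGroup (Fin 4), x ^ 3 = 1 → x ≠ 1 →
    ∃ i : alternatingGroup (Fin 4),
    i ^ 2 = 1 ∧ i ≠ 1 ∧ (i * x) ^ 3 = 1 ∧ i * x ≠ 1 ∧
    ∀ g : alternatingGroup (Fin 4), ∃ a : Fin 3, ∃ e : Fin 2, ∃ b : Fin 3,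
      g = x ^ (a : ℕ) * i ^ (e : ℕ) * x ^ (b : ℕ) := by
  decide

theorem a4_lemma (x : alternatingGroup (Fin 4)) (hx : orderOf x = 3) :
    ∃ i : alternatingGroup (Fin 4), orderOf i = 2 ∧ orderOf (i * x) = 3 ∧
      closure {i, x} = ⊤ := by
  have : Fact (Nat.Prime 2) := ⟨Nat.prime_two⟩
  have : Fact (Nat.Prime 3) := ⟨Nat.prime_three⟩
  have hx3 : x ^ 3 = 1 := hx ▸ pow_orderOf_eq_one x
  have hx1 : x ≠ 1 := by
    rintro rfl
    simp at hx
  obtain ⟨i, h1, h2, h3, h4, h5⟩ := a4_aux x hx3 hx1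
  refine ⟨i, orderOf_eq_prime h1 h2, orderOf_eq_prime h3 h4, ?_⟩
  rw [eq_top_iff]
  intro g _
  obtain ⟨a, e, b, rfl⟩ := h5 g
  have hi : i ∈ closure ({i, x} : Set (alternatingGroup (Fin 4))) := subset_closure (by simp)
  have hxm : x ∈ closure ({i, x} : Set (alternatingGroup (Fin 4))) := subset_closure (by simp)
  exact mul_mem (mul_mem (pow_mem hxm _) (pow_mem hi _)) (pow_mem hxm _)

/-- auxiliary predicate for the `decide` search -/
def good (x i : alternatingGroup (Fin 5)) : Prop :=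
  i ^ 2 = 1 ∧ i ≠ 1 ∧ (i * x) ^ 3 = 1 ∧ i * x ≠ 1

instance (x i : alternatingGroup (Fin 5)) : Decidable (good x i) := by
  unfold good; infer_instance

set_option maxRecDepth 1000000 in
theorem a5_aux : ∀ x : alternatingGroup (Fin 5), x ^ 3 = 1 → x ≠ 1 →
    ∃ i : alternatingGroup (Fin 5), good x i ∧
    ∃ i' : alternatingGroup (Fin 5), good x i' ∧ (i * i') ^ 5 = 1 ∧ i * i' ≠ 1 := by
  decide

theorem a5_lemma (x : alternatingGroup (Fin 5)) (hx : orderOf x = 3) :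
    ∃ i i' : alternatingGroup (Fin 5), orderOf i = 2 ∧ orderOf i' = 2 ∧ orderOf (i * x) = 3 ∧
      orderOf (i' * x) = 3 ∧ closure {i, i', x} = ⊤ := by
  have : Fact (Nat.Prime 2) := ⟨Nat.prime_two⟩
  have : Fact (Nat.Prime 3) := ⟨Nat.prime_three⟩
  have : Fact (Nat.Prime 5) := ⟨Nat.prime_five⟩
  have hx3 : x ^ 3 = 1 := hx ▸ pow_orderOf_eq_one x
  have hx1 : x ≠ 1 := by
    rintro rfl
    simp at hx
  obtain ⟨i, ⟨h1, h2, h3, h4⟩, i', ⟨h1', h2', h3', h4'⟩, h5, h6⟩ := a5_aux x hx3 hx1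
  have oi : orderOf i = 2 := orderOf_eq_prime h1 h2
  have oii : orderOf (i * i') = 5 := orderOf_eq_prime h5 h6
  refine ⟨i, i', oi, orderOf_eq_prime h1' h2', orderOf_eq_prime h3 h4,
    orderOf_eq_prime h3' h4', ?_⟩
  set K := closure ({i, i', x} : Set (alternatingGroup (Fin 5))) with hK
  have hi : i ∈ K := subset_closure (by simp)
  have hi' : i' ∈ K := subset_closure (by simp)
  have hxm : x ∈ K := subset_closure (by simp)
  have hdvd : ∀ g ∈ K, orderOf g ∣ Nat.card K := by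
    intro g hg
    have := orderOf_dvd_natCard (⟨g, hg⟩ : K)
    rwa [Subgroup.orderOf_mk] at this
  have d2 : 2 ∣ Nat.card K := oi ▸ hdvd i hi
  have d3 : 3 ∣ Nat.card K := hx ▸ hdvd x hxm
  have d5 : 5 ∣ Nat.card K := by
    have := hdvd _ (mul_mem hi hi')
    rwa [oii] at this
  have d30 : 30 ∣ Nat.card K := by
    have d6 : 2 * 3 ∣ Nat.card K := Nat.Coprime.mul_dvd_of_dvd_of_dvd (by norm_num) d2 d3
    have : 2 * 3 * 5 ∣ Nat.card K := Nat.Coprime.mul_dvd_of_dvd_of_dvd (by norm_num) d6 d5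
    simpa using this
  have hcard : Nat.card (alternatingGroup (Fin 5)) = 60 := by
    rw [Nat.card_eq_fintype_card]; rfl
  obtain ⟨m, hm⟩ := d30
  have hmul := K.card_mul_index
  rw [hcard, hm] at hmul
  have hidx : K.index = 1 ∨ K.index = 2 := by
    have h7 : m * K.index = 2 := by nlinarith
    have h8 : K.index ∣ 2 := ⟨m, by rw [← h7, mul_comm]⟩
    exact (Nat.dvd_prime Nat.prime_two).1 h8
  rcases hidx with h | h
  · exact Subgroup.index_eq_one.1 h
  · exfalso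
    have hn : K.Normal := Subgroup.normal_of_index_eq_two h
    have : IsSimpleGroup (alternatingGroup (Fin 5)) :=
      alternatingGroup.isSimpleGroup (by simp)
    rcases hn.eq_bot_or_eq_top with h9 | h9
    · rw [h9, Subgroup.index_bot, hcard] at h
      omega
    · rw [h9, Subgroup.index_top] at h
      omega

end Cfsg.Agent.Lib.Helper70ZaG4a
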