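import Mathlib
import Cfsg.Agent.Lib.Helper71ZaDefs

/-! Project 71 (Zassenhaus), piece G4b. -/

set_option autoImplicit false

namespace Cfsg.Agent.Lib.Helper70ZaG4b

open Cfsg.Agent.Lib.Helper71ZaDefs Subgroup

theorem orderOf_eq_six {D : Type*} [Group D] (y z : D) (hz : orderOf z = 2) (h3 : y ^ 3 = z)
    (h2 : y ^ 2 ≠ 1) : orderOf y = 6 := by
  have hz1 : z ≠ 1 := by
    rintro rfl
    simp at hz
  have hz2 : z ^ 2 = 1 := hz ▸ pow_orderOf_eq_one z
  have h6 : y ^ 6 = 1 := by
    have : y ^ 6 = (y ^ 3) ^ 2 := by rw [← pow_mul]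
    rw [this, h3, hz2]
  have hd : orderOf y ∣ 6 := orderOf_dvd_of_pow_eq_one h6
  have hle : orderOf y ≤ 6 := Nat.le_of_dvd (by norm_num) hd
  have hp := pow_orderOf_eq_one y
  generalize orderOf y = n at hd hle hp ⊢
  interval_cases n
  · norm_num at hd
  · exfalso; apply hz1; rw [← h3]; rw [pow_one] at hp; rw [hp, one_pow]
  · exact absurd hp h2
  · exact absurd (h3.symm.trans hp) hz1
  · norm_num at hd
  · norm_num at hd
  · rfl

theorem closure_Iset_eq_top {D A : Type*} [Group D] [Finite D] [Group A]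
    (hinv : ∀ a b : D, orderOf a = 2 → orderOf b = 2 → a = b)
    (f : D →* A) (hf : Function.Surjective f) (hk : Nat.card f.ker = 2) (x : D)
    (hx : orderOf x = 3) (S : Set A) (hS : ∀ s ∈ S, orderOf s = 2 ∧ orderOf (s * f x) = 3)
    (hne : S.Nonempty) (hgen : closure (S ∪ {f x}) = ⊤) : closure (Iset x ∪ {x}) = ⊤ := by
  have : Fact (Nat.Prime 2) := ⟨Nat.prime_two⟩
  obtain ⟨⟨z, hzk⟩, hz⟩ := exists_prime_orderOf_dvd_card' (G := f.ker) 2 (by rw [hk])
  rw [Subgroup.orderOf_mk] at hz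
  have hz1 : z ≠ 1 := by
    rintro rfl
    simp at hz
  have hz2 : z ^ 2 = 1 := hz ▸ pow_orderOf_eq_one z
  have hker : ∀ k ∈ f.ker, k = 1 ∨ k = z := by
    intro k hkk
    by_cases h1 : k = 1
    · exact Or.inl h1
    · right
      obtain ⟨y, -, hy⟩ := (Nat.card_eq_two_iff' (1 : f.ker)).1 hk
      have e1 := hy ⟨k, hkk⟩ (fun h => h1 (congrArg Subtype.val h))
      have e2 := hy ⟨z, hzk⟩ (fun h => hz1 (congrArg Subtype.val h))
      exact congrArg Subtype.val (e1.trans e2.symm)
  have hzc : ∀ g : D, g * z = z * g := by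
    intro g
    have h1 : orderOf (g * z * g⁻¹) = 2 := by
      rw [← hz]
      exact orderOf_injective (MulAut.conj g).toMonoidHom (MulAut.conj g).injective z
    have h2 := hinv _ _ h1 hz
    calc g * z = g * z * g⁻¹ * g := by group
      _ = z * g := by rw [h2]
  have hfz : f z = 1 := hzk
  -- a lift with cube `z` lies in `Iset x`
  have hlift : ∀ s ∈ S, ∀ i : D, f i = s → (i * x) ^ 3 = z → i ∈ Iset x := by
    intro s hs i hi h3
    obtain ⟨os, osx⟩ := hS s hs
    have hs1 : s ≠ 1 := by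
      rintro rfl
      simp at os
    have hs2 : s ^ 2 = 1 := os ▸ pow_orderOf_eq_one s
    have hi2k : i ^ 2 ∈ f.ker := by
      rw [MonoidHom.mem_ker, map_pow, hi, hs2]
    have hi1 : i ≠ 1 := by
      rintro rfl
      exact hs1 (hi.symm.trans (map_one f))
    have hi2 : i ^ 2 = z := by
      rcases hker _ hi2k with h | h
      · exfalso
        have := hinv i z (orderOf_eq_prime h hi1) hz
        rw [this, hfz] at hi
        exact hs1 hi.symm
      · exact h
    refine ⟨?_, ?_⟩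
    · have := orderOf_eq_prime_pow (x := i) (p := 2) (n := 1) (by rw [pow_one, hi2]; exact hz1)
        (by
          have : i ^ 2 ^ (1 + 1) = (i ^ 2) ^ 2 := by rw [← pow_mul]; norm_num
          rw [this, hi2, hz2])
      simpa using this
    · apply orderOf_eq_six _ z hz h3
      intro h2
      have e2 : (s * f x) ^ 2 = 1 := by
        rw [← hi, ← map_mul, ← map_pow, h2, map_one]
      have e3 : orderOf (s * f x) ∣ 2 := orderOf_dvd_of_pow_eq_one e2
      rw [osx] at e3
      norm_num at e3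
  have hex : ∀ s ∈ S, ∃ i ∈ Iset x, f i = s := by
    intro s hs
    obtain ⟨os, osx⟩ := hS s hs
    obtain ⟨i, hi⟩ := hf s
    have h3k : (i * x) ^ 3 ∈ f.ker := by
      rw [MonoidHom.mem_ker, map_pow, map_mul, hi, ← osx, pow_orderOf_eq_one]
    rcases hker _ h3k with h | h
    · refine ⟨z * i, hlift s hs (z * i) (by rw [map_mul, hfz, one_mul, hi]) ?_, by
        rw [map_mul, hfz, one_mul, hi]⟩
      have hc : Commute z (i * x) := (hzc (i * x)).symm
      rw [mul_assoc, hc.mul_pow, h, mul_one]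
      have : z ^ 3 = z ^ 2 * z := by rw [pow_succ]
      rw [this, hz2, one_mul]
    · exact ⟨i, hlift s hs i hi h, hi⟩
  set K := closure (Iset x ∪ {x}) with hK
  have hxK : x ∈ K := subset_closure (by simp)
  have hIK : ∀ i ∈ Iset x, i ∈ K := fun i hi => subset_closure (Or.inl hi)
  have hmap : K.map f = ⊤ := by
    rw [eq_top_iff, ← hgen, closure_le]
    rintro a (ha | ha)
    · obtain ⟨i, hi, rfl⟩ := hex a ha
      exact ⟨i, hIK i hi, rfl⟩
    · rw [Set.mem_singleton_iff] at ha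
      exact ⟨x, hxK, ha.symm⟩
  have hzK : z ∈ K := by
    obtain ⟨s, hs⟩ := hne
    obtain ⟨i, hi, hfi⟩ := hex s hs
    have o4 : orderOf i = 4 := hi.1
    have h1 : orderOf (i ^ 2) = 2 := by
      rw [orderOf_pow, o4]; rfl
    rw [← hinv _ _ h1 hz]
    exact pow_mem (hIK i hi) 2
  rw [eq_top_iff]
  intro g _
  have hg : f g ∈ K.map f := by rw [hmap]; trivial
  obtain ⟨k, hkK, hkg⟩ := hg
  have h1 : g * k⁻¹ ∈ f.ker := by
    rw [MonoidHom.mem_ker, map_mul, map_inv, hkg, mul_inv_cancel]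
  have h2 : g * k⁻¹ ∈ K := by
    rcases hker _ h1 with h | h
    · rw [h]; exact one_mem K
    · rw [h]; exact hzK
  have : g = g * k⁻¹ * k := by group
  rw [this]
  exact mul_mem h2 hkK

end Cfsg.Agent.Lib.Helper70ZaG4b
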