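import Mathlib

set_option autoImplicit false

namespace Cfsg.Agent.Lib.Helper71Fpf

open Polynomial

section General

variable {F V : Type*} [Field F] [AddCommGroup V] [Module F V] (f : F[X])

/-- The ring homomorphism `F[X]/(f) → End V` attached to an endomorphism killed by `f`. -/
noncomputable def psi (S : Module.End F V) (hS : aeval S f = 0) :
    AdjoinRoot f →+* Module.End F V :=
  Ideal.Quotient.lift (Ideal.span {f}) (aeval S : F[X] →ₐ[F] Module.End F V).toRingHom (by
    intro a ha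
    obtain ⟨c, rfl⟩ := Ideal.mem_span_singleton.mp ha
    simp [hS])

theorem psi_mk (S : Module.End F V) (hS : aeval S f = 0) (g : F[X]) :
    psi f S hS (AdjoinRoot.mk f g) = aeval S g := rfl

theorem psi_root (S : Module.End F V) (hS : aeval S f = 0) :
    psi f S hS (AdjoinRoot.root f) = S := by
  rw [AdjoinRoot.root, psi_mk, aeval_X]

/-- `V` as a module over `F[X]/(f)`. -/
def VS (S : Module.End F V) (_hS : aeval S f = 0) : Type _ := V

instance (S : Module.End F V) (hS : aeval S f = 0) : AddCommGroup (VS f S hS) :=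
  inferInstanceAs (AddCommGroup V)

noncomputable instance (S : Module.End F V) (hS : aeval S f = 0) :
    Module (AdjoinRoot f) (VS f S hS) :=
  Module.compHom V (psi f S hS)

instance (S : Module.End F V) (hS : aeval S f = 0) [Finite V] : Finite (VS f S hS) :=
  inferInstanceAs (Finite V)

theorem root_smul (S : Module.End F V) (hS : aeval S f = 0) (v : V) :
    ((AdjoinRoot.root f) • (show VS f S hS from v) : VS f S hS) = (show VS f S hS from S v) := by
  show (psi f S hS (AdjoinRoot.root f)) v = S v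
  rw [psi_root]

theorem finite_adjoinRoot [Finite F] (hf : f ≠ 0) : Finite (AdjoinRoot f) := by
  have hm : (f * C f.leadingCoeff⁻¹).Monic := monic_mul_leadingCoeff_inv hf
  have h1 : Module.Finite F (AdjoinRoot f) := (AdjoinRoot.powerBasis hf).finite
  exact Module.finite_of_finite F

theorem exists_iso [Fact (Irreducible f)] [Finite F] [Finite V] (S S' : Module.End F V)
    (hS : aeval S f = 0) (hS' : aeval S' f = 0) :
    ∃ B : V ≃+ V, ∀ v, B (S v) = S' (B v) := by
  have hf : f ≠ 0 := (Fact.out : Irreducible f).ne_zero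
  have : Finite (AdjoinRoot f) := finite_adjoinRoot f hf
  have h1 := Module.natCard_eq_pow_finrank (K := AdjoinRoot f) (V := VS f S hS)
  have h2 := Module.natCard_eq_pow_finrank (K := AdjoinRoot f) (V := VS f S' hS')
  have h3 : Nat.card (VS f S hS) = Nat.card (VS f S' hS') := rfl
  have hK : 1 < Nat.card (AdjoinRoot f) := Finite.one_lt_card
  have h4 : Module.finrank (AdjoinRoot f) (VS f S hS) =
      Module.finrank (AdjoinRoot f) (VS f S' hS') := by
    rw [h1, h2] at h3
    exact Nat.pow_right_injective hK h3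
  let e := LinearEquiv.ofFinrankEq (VS f S hS) (VS f S' hS') h4
  refine ⟨e.toAddEquiv, fun v => ?_⟩
  have h5 := e.map_smul (AdjoinRoot.root f) (show VS f S hS from v)
  rw [root_smul] at h5
  exact h5.trans (root_smul f S' hS' _)

theorem exists_trans [Fact (Irreducible f)] [Finite F] [Finite V] (S : Module.End F V)
    (hS : aeval S f = 0) (v w : V) (hv : v ≠ 0) (hw : w ≠ 0) :
    ∃ B : V ≃+ V, (∀ u, B (S u) = S (B u)) ∧ B v = w := by
  let K := AdjoinRoot f
  let W := VS f S hS
  let v' : W := v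
  let w' : W := w
  have hv' : v' ≠ 0 := hv
  have hw' : w' ≠ 0 := hw
  let f₁ := (LinearEquiv.toSpanNonzeroSingleton K W v' hv').symm ≪≫ₗ
    (LinearEquiv.toSpanNonzeroSingleton K W w' hw')
  obtain ⟨g, hg⟩ := Submodule.exists_linearEquiv_restrict_eq f₁
  refine ⟨g.toAddEquiv, fun u => ?_, ?_⟩
  · have h5 := g.map_smul (AdjoinRoot.root f) (show VS f S hS from u)
    rw [root_smul] at h5
    exact h5.trans (root_smul f S hS _)
  · have h1 := hg ⟨v', Submodule.mem_span_singleton_self v'⟩
    have h2 : (LinearEquiv.toSpanNonzeroSingleton K W v' hv').symm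
        ⟨v', Submodule.mem_span_singleton_self v'⟩ = 1 := by
      rw [LinearEquiv.symm_apply_eq, LinearEquiv.toSpanNonzeroSingleton_one]
    have h3 : (f₁ ⟨v', Submodule.mem_span_singleton_self v'⟩ : W) = w' := by
      show ((LinearEquiv.toSpanNonzeroSingleton K W w' hw')
        ((LinearEquiv.toSpanNonzeroSingleton K W v' hv').symm _) : W) = w'
      rw [h2, LinearEquiv.toSpanNonzeroSingleton_one]
    exact h1.symm.trans h3

end General

section ZModp

variable {p q : ℕ} [hp : Fact p.Prime] [hq : Fact q.Prime]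
variable {V : Type*} [AddCommGroup V] [Module (ZMod p) V]

theorem aeval_cyclotomic_eq_zero (T : Module.End (ZMod p) V) (hTq : T ^ q = 1)
    (hfpf : ∀ v, T v = v → v = 0) : aeval T (cyclotomic q (ZMod p)) = 0 := by
  rw [cyclotomic_prime, map_sum]
  simp only [map_pow, aeval_X]
  have h1 : (T - 1) * ∑ i ∈ Finset.range q, T ^ i = 0 := by
    rw [mul_geom_sum, hTq, sub_self]
  ext v
  apply hfpf
  have h2 := LinearMap.congr_fun h1 v
  simp only [Module.End.mul_apply, LinearMap.sub_apply, Module.End.one_apply,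
    LinearMap.zero_apply] at h2
  exact sub_eq_zero.mp h2

omit hp in
theorem orderOf_unitOfCoprime (h : p.Coprime q) :
    orderOf (ZMod.unitOfCoprime p h) = orderOf (p : ZMod q) := by
  rw [← orderOf_units, ZMod.coe_unitOfCoprime]

theorem irreducible_cyclotomic (hpq : p ≠ q) (hord : orderOf (p : ZMod q) = q - 1) :
    Irreducible (cyclotomic q (ZMod p)) := by
  have hnd : ¬ p ∣ q := fun h => hpq ((Nat.prime_dvd_prime_iff_eq hp.out hq.out).mp h)
  apply ZMod.irreducible_of_dvd_cyclotomic_of_natDegree hnd dvd_rfl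
  rw [natDegree_cyclotomic, Nat.totient_prime hq.out, orderOf_unitOfCoprime, hord]

end ZModp

section KP

variable {F V : Type*} [Field F] [AddCommGroup V] [Module F V]

theorem conj_pow (T T' : Module.End F V) (B : V ≃ₗ[F] V) (h : ∀ u, B (T u) = T' (B u)) (n : ℕ)
    (u : V) : B ((T ^ n) u) = (T' ^ n) (B u) := by
  induction n generalizing u with
  | zero => simp
  | succ n ih =>
    rw [pow_succ, pow_succ, Module.End.mul_apply, Module.End.mul_apply, ih, h]

theorem conj_aeval (T T' : Module.End F V) (B : V ≃ₗ[F] V) (h : ∀ u, B (T u) = T' (B u))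
    (g : F[X]) (u : V) : B (aeval T g u) = aeval T' g (B u) := by
  induction g using Polynomial.induction_on' with
  | add a b ha hb => simp only [map_add, LinearMap.add_apply, ha, hb]
  | monomial n c =>
    simp only [aeval_monomial, Module.End.mul_apply, Module.algebraMap_end_apply, map_smul,
      conj_pow T T' B h]

/-- If the normaliser of `F[T]` is transitive on nonzero vectors, every nonzero element of `F[T]`
is injective. -/
theorem kp [Finite V] (T : Module.End F V)
    (htrans : ∀ v w : V, v ≠ 0 → w ≠ 0 → ∃ (B : V ≃ₗ[F] V) (j : ℕ), B v = w ∧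
      ∀ u, B (T u) = (T ^ j) (B u)) :
    ∀ (g : F[X]) (v : V), v ≠ 0 → aeval T g v = 0 → aeval T g = 0 := by
  classical
  have hfin : Finite (Module.End F V) :=
    Finite.of_injective (fun r : Module.End F V => (r : V → V)) DFunLike.coe_injective
  set R : Set (Module.End F V) := Set.range (fun g : F[X] => aeval T g) with hR
  let Ann : V → Set (Module.End F V) := fun v => {r | r ∈ R ∧ r v = 0}
  have hcomm : ∀ r ∈ R, ∀ s ∈ R, ∀ u, r (s u) = s (r u) := by
    rintro _ ⟨a, rfl⟩ _ ⟨b, rfl⟩ u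
    show (aeval T a) ((aeval T b) u) = (aeval T b) ((aeval T a) u)
    rw [← Module.End.mul_apply, ← Module.End.mul_apply, ← map_mul, ← map_mul, mul_comm]
  have hle : ∀ v w, v ≠ 0 → w ≠ 0 → (Ann v).ncard ≤ (Ann w).ncard := by
    intro v w hv hw
    obtain ⟨B, j, hB, hBT⟩ := htrans v w hv hw
    apply Set.ncard_le_ncard_of_injOn (fun r => B.conj r) _ _ (Set.toFinite _)
    · rintro _ ⟨⟨g, rfl⟩, hgv⟩
      have hconj : B.conj (aeval T g) = aeval (T ^ j) g := by
        ext u
        rw [LinearEquiv.conj_apply_apply, conj_aeval T (T ^ j) B hBT, LinearEquiv.apply_symm_apply]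
      refine ⟨⟨g.comp (X ^ j), ?_⟩, ?_⟩
      · show aeval T (g.comp (X ^ j)) = B.conj (aeval T g)
        rw [hconj, aeval_comp, map_pow, aeval_X]
      · show (B.conj (aeval T g)) w = 0
        have hsymm : B.symm w = v := by rw [← hB, LinearEquiv.symm_apply_apply]
        have hgv' : (aeval T g) v = 0 := hgv
        rw [LinearEquiv.conj_apply_apply, hsymm, hgv', map_zero]
    · intro r _ s _ hrs
      exact B.conj.injective hrs
  have hsub : ∀ v, v ≠ 0 → ∀ s ∈ R, s v ≠ 0 → Ann (s v) = Ann v := by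
    intro v hv s hs hsv
    symm
    apply Set.eq_of_subset_of_ncard_le _ (hle _ _ hsv hv) (Set.toFinite _)
    rintro r ⟨hr, hrv⟩
    exact ⟨hr, by rw [hcomm r hr s hs, hrv, map_zero]⟩
  have hall : ∀ v w, v ≠ 0 → w ≠ 0 → Ann v = Ann w := by
    intro v w hv hw
    by_contra hne
    have h1 : ¬ Ann v ⊆ Ann w := fun h =>
      hne (Set.eq_of_subset_of_ncard_le h (hle _ _ hw hv) (Set.toFinite _))
    have h2 : ¬ Ann w ⊆ Ann v := fun h =>
      hne (Set.eq_of_subset_of_ncard_le h (hle _ _ hv hw) (Set.toFinite _)).symm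
    obtain ⟨t, ht1, ht2⟩ := Set.not_subset.mp h1
    obtain ⟨t', ht1', ht2'⟩ := Set.not_subset.mp h2
    have htw : t w ≠ 0 := fun h => ht2 ⟨ht1.1, h⟩
    have ht'v : t' v ≠ 0 := fun h => ht2' ⟨ht1'.1, h⟩
    have e1 : t (v + w) = t w := by rw [map_add, ht1.2, zero_add]
    have e2 : t' (v + w) = t' v := by rw [map_add, ht1'.2, add_zero]
    have hvw : v + w ≠ 0 := by
      intro h
      rw [h, map_zero] at e1
      exact htw e1.symm
    have a1 : Ann (v + w) = Ann w := by
      rw [← hsub (v + w) hvw t ht1.1 (by rw [e1]; exact htw), e1, hsub w hw t ht1.1 htw]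
    have a2 : Ann (v + w) = Ann v := by
      rw [← hsub (v + w) hvw t' ht1'.1 (by rw [e2]; exact ht'v), e2, hsub v hv t' ht1'.1 ht'v]
    exact hne (a2.symm.trans a1)
  intro g v hv hgv
  ext w
  by_cases hw : w = 0
  · simp [hw]
  · have hmem : aeval T g ∈ Ann w := by
      rw [← hall v w hv hw]
      exact ⟨⟨g, rfl⟩, hgv⟩
    simpa using hmem.2

theorem irreducible_minpoly [Finite V] [Nontrivial V] (T : Module.End F V)
    (hkp : ∀ (g : F[X]) (v : V), v ≠ 0 → aeval T g v = 0 → aeval T g = 0) :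
    Irreducible (minpoly F T) := by
  have hmf : Module.Finite F V := Module.Finite.of_finite
  have hint : IsIntegral F T := IsIntegral.of_finite F T
  have hm0 : minpoly F T ≠ 0 := minpoly.ne_zero hint
  have key : ∀ a b : F[X], minpoly F T = a * b → aeval T b = 0 → IsUnit a := by
    intro a b hab hb
    obtain ⟨c, hc⟩ := minpoly.dvd F T hb
    have h1 : minpoly F T * 1 = minpoly F T * (a * c) := by
      rw [mul_one]
      conv_lhs => rw [hab, hc]
      ring
    have h2 := mul_left_cancel₀ hm0 h1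
    exact IsUnit.of_mul_eq_one c h2.symm
  rw [irreducible_iff]
  refine ⟨minpoly.not_isUnit F T, fun a b hab => ?_⟩
  by_cases hb : aeval T b = 0
  · exact Or.inl (key a b hab hb)
  · right
    obtain ⟨u, hu⟩ : ∃ u, aeval T b u ≠ 0 := by
      by_contra hcon
      push Not at hcon
      exact hb (LinearMap.ext hcon)
    have h1 : aeval T a (aeval T b u) = 0 := by
      rw [← Module.End.mul_apply, ← map_mul, ← hab, minpoly.aeval]
      rfl
    have h2 := hkp a _ hu h1
    exact key b a (by rw [hab, mul_comm]) h2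

end KP

section Final

variable {p q : ℕ} [hp : Fact p.Prime] [hq : Fact q.Prime]
variable {V : Type*} [AddCommGroup V] [Module (ZMod p) V] [Finite V] [Nontrivial V]

theorem orderOf_eq (hpq : p ≠ q) (T : Module.End (ZMod p) V) (hTq : T ^ q = 1)
    (hfpf : ∀ v, T v = v → v = 0)
    (htrans : ∀ v w : V, v ≠ 0 → w ≠ 0 → ∃ (B : V ≃ₗ[ZMod p] V) (j : ℕ), B v = w ∧
      ∀ u, B (T u) = (T ^ j) (B u))
    (hpow : ∀ j, 0 < j → j < q → ∃ B : V ≃ₗ[ZMod p] V, ∀ u, B (T u) = (T ^ j) (B u)) :
    orderOf (p : ZMod q) = q - 1 := by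
  classical
  have hkp := kp T htrans
  have hirr := irreducible_minpoly T hkp
  set m := minpoly (ZMod p) T with hm
  have : Fact (Irreducible m) := ⟨hirr⟩
  have hdvd : m ∣ cyclotomic q (ZMod p) :=
    minpoly.dvd _ _ (aeval_cyclotomic_eq_zero T hTq hfpf)
  have hcop : p.Coprime q := (Nat.coprime_primes hp.out hq.out).mpr hpq
  have hdeg := natDegree_of_dvd_cyclotomic_of_irreducible (K := ZMod p) (p := p) (f := 1) (n := q)
    (by simp [ZMod.card]) hcop hdvd hirr
  have hdeg' : m.natDegree = orderOf (p : ZMod q) := by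
    rw [hdeg, ← orderOf_units, ZMod.coe_unitOfCoprime]
    simp
  have hT1 : T ≠ 1 := by
    intro h
    obtain ⟨v, hv⟩ := exists_ne (0 : V)
    exact hv (hfpf v (by rw [h]; rfl))
  have hordT : orderOf T = q := orderOf_eq_prime hTq hT1
  have hmT : aeval T m = 0 := minpoly.aeval _ _
  have hψinj : Function.Injective (psi m T hmT) := (psi m T hmT).injective
  have hψ : ∀ (g : (ZMod p)[X]) (j : ℕ),
      psi m T hmT (aeval ((AdjoinRoot.root m) ^ j) g) = aeval (T ^ j) g := by
    intro g j
    have h1 : aeval ((AdjoinRoot.root m) ^ j) g = AdjoinRoot.mk m (g.comp (X ^ j)) := by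
      rw [← AdjoinRoot.aeval_eq, aeval_comp, map_pow, aeval_X]
    rw [h1, psi_mk, aeval_comp, map_pow, aeval_X]
  have hroot : ∀ j, 0 < j → j < q → aeval ((AdjoinRoot.root m) ^ j) m = 0 := by
    intro j h0 h1
    obtain ⟨B, hB⟩ := hpow j h0 h1
    apply hψinj
    rw [map_zero, hψ]
    ext u
    obtain ⟨u', rfl⟩ := B.surjective u
    rw [← conj_aeval T (T ^ j) B hB, hmT]
    simp
  have hψpow : ∀ j : ℕ, psi m T hmT ((AdjoinRoot.root m) ^ j) = T ^ j := by
    intro j
    rw [map_pow, psi_root]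
  have hcard : ((Finset.Ioo 0 q).image (fun j => (AdjoinRoot.root m) ^ j)).card = q - 1 := by
    rw [Finset.card_image_of_injOn, Nat.card_Ioo]
    · omega
    · intro i hi j hj hij
      have h1 : T ^ i = T ^ j := by
        rw [← hψpow, ← hψpow]
        exact congrArg _ hij
      have hi' := (Finset.mem_Ioo.mp hi).2
      have hj' := (Finset.mem_Ioo.mp hj).2
      exact pow_injOn_Iio_orderOf (by rw [hordT]; exact hi') (by rw [hordT]; exact hj') h1
  have hm0 : m.map (algebraMap (ZMod p) (AdjoinRoot m)) ≠ 0 :=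
    (Polynomial.map_ne_zero_iff (algebraMap (ZMod p) (AdjoinRoot m)).injective).mpr hirr.ne_zero
  have hle : q - 1 ≤ m.natDegree := by
    rw [← hcard, ← natDegree_map (algebraMap (ZMod p) (AdjoinRoot m))]
    apply card_le_degree_of_subset_roots
    intro z hz
    rw [Finset.mem_val, Finset.mem_image] at hz
    obtain ⟨j, hj, rfl⟩ := hz
    rw [mem_roots hm0, IsRoot.def, eval_map_algebraMap]
    exact hroot j (Finset.mem_Ioo.mp hj).1 (Finset.mem_Ioo.mp hj).2
  have hpne : (p : ZMod q) ≠ 0 := by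
    intro h
    rw [ZMod.natCast_eq_zero_iff] at h
    exact hpq ((Nat.prime_dvd_prime_iff_eq hq.out hp.out).mp h).symm
  have hup : orderOf (p : ZMod q) ≤ q - 1 :=
    Nat.le_of_dvd (Nat.sub_pos_of_lt hq.out.one_lt) (ZMod.orderOf_dvd_card_sub_one hpne)
  omega

end Final

section Mul

variable {A : Type*} [CommGroup A] {p q : ℕ} [hp : Fact p.Prime] [hq : Fact q.Prime]

/-- The `ZMod p`-module structure on an elementary abelian group. -/
noncomputable abbrev modOf (hexp : ∀ a : A, a ^ p = 1) : Module (ZMod p) (Additive A) :=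
  AddCommGroup.zmodModule (n := p) (fun x => by
    show Additive.ofMul ((Additive.toMul x) ^ p) = 0
    rw [hexp]; rfl)

/-- The linear map attached to an endomorphism. -/
noncomputable def toLin (hexp : ∀ a : A, a ^ p = 1) (σ : A →* A) :
    letI := modOf hexp
    Module.End (ZMod p) (Additive A) :=
  letI := modOf hexp
  (MonoidHom.toAdditive σ).toZModLinearMap p

theorem toLin_apply (hexp : ∀ a : A, a ^ p = 1) (σ : A →* A) (v : Additive A) :
    letI := modOf hexp
    toLin hexp σ v = Additive.ofMul (σ (Additive.toMul v)) := rfl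

theorem toLin_pow (hexp : ∀ a : A, a ^ p = 1) (σ : MulAut A) (n : ℕ) (v : Additive A) :
    letI := modOf hexp
    ((toLin hexp σ.toMonoidHom) ^ n) v = Additive.ofMul ((σ ^ n) (Additive.toMul v)) := by
  letI := modOf hexp
  induction n generalizing v with
  | zero => simp
  | succ n ih =>
    rw [pow_succ, Module.End.mul_apply, ih, toLin_apply, pow_succ]
    rfl

/-- The linear equivalence attached to an automorphism. -/
noncomputable def toLinEquiv (hexp : ∀ a : A, a ^ p = 1) (β : MulAut A) :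
    letI := modOf hexp
    Additive A ≃ₗ[ZMod p] Additive A :=
  letI := modOf hexp
  LinearEquiv.ofBijective (toLin hexp β.toMonoidHom) β.bijective

theorem toLinEquiv_apply (hexp : ∀ a : A, a ^ p = 1) (β : MulAut A) (v : Additive A) :
    letI := modOf hexp
    toLinEquiv hexp β v = Additive.ofMul (β (Additive.toMul v)) := rfl

theorem toLin_props (hexp : ∀ a : A, a ^ p = 1) (σ : MulAut A) (hσq : σ ^ q = 1)
    (hfpf : ∀ a, σ a = a → a = 1) :
    letI := modOf hexp
    (toLin hexp σ.toMonoidHom) ^ q = 1 ∧ ∀ v, toLin hexp σ.toMonoidHom v = v → v = 0 := by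
  letI := modOf hexp
  constructor
  · ext v
    rw [toLin_pow, hσq]
    rfl
  · intro v hv
    exact hfpf (Additive.toMul v) hv

theorem mul_exists_iso [Finite A] (hexp : ∀ a : A, a ^ p = 1) (hpq : p ≠ q)
    (hord : orderOf (p : ZMod q) = q - 1) (σ σ' : MulAut A) (hσq : σ ^ q = 1)
    (hfpf : ∀ a, σ a = a → a = 1) (hσq' : σ' ^ q = 1) (hfpf' : ∀ a, σ' a = a → a = 1) :
    ∃ β : MulAut A, ∀ a, β (σ a) = σ' (β a) := by
  letI := modOf hexp
  have : Fact (Irreducible (cyclotomic q (ZMod p))) := ⟨irreducible_cyclotomic hpq hord⟩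
  obtain ⟨h1, h2⟩ := toLin_props hexp σ hσq hfpf
  obtain ⟨h1', h2'⟩ := toLin_props hexp σ' hσq' hfpf'
  have : Finite (Additive A) := inferInstanceAs (Finite A)
  obtain ⟨B, hB⟩ := exists_iso (cyclotomic q (ZMod p)) _ _
    (aeval_cyclotomic_eq_zero _ h1 h2) (aeval_cyclotomic_eq_zero _ h1' h2')
  exact ⟨MulEquiv.toAdditive.symm B, fun a => hB (Additive.ofMul a)⟩

theorem mul_exists_trans [Finite A] (hexp : ∀ a : A, a ^ p = 1) (hpq : p ≠ q)
    (hord : orderOf (p : ZMod q) = q - 1) (σ : MulAut A) (hσq : σ ^ q = 1)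
    (hfpf : ∀ a, σ a = a → a = 1) (v w : A) (hv : v ≠ 1) (hw : w ≠ 1) :
    ∃ β : MulAut A, (∀ a, β (σ a) = σ (β a)) ∧ β v = w := by
  letI := modOf hexp
  have : Fact (Irreducible (cyclotomic q (ZMod p))) := ⟨irreducible_cyclotomic hpq hord⟩
  obtain ⟨h1, h2⟩ := toLin_props hexp σ hσq hfpf
  have : Finite (Additive A) := inferInstanceAs (Finite A)
  obtain ⟨B, hB, hBv⟩ := exists_trans (cyclotomic q (ZMod p)) _
    (aeval_cyclotomic_eq_zero _ h1 h2) (Additive.ofMul v) (Additive.ofMul w) hv hw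
  exact ⟨MulEquiv.toAdditive.symm B, fun a => hB (Additive.ofMul a), hBv⟩

theorem mul_orderOf_eq [Finite A] [Nontrivial A] (hexp : ∀ a : A, a ^ p = 1) (hpq : p ≠ q)
    (σ : MulAut A) (hσq : σ ^ q = 1) (hfpf : ∀ a, σ a = a → a = 1)
    (htrans : ∀ v w : A, v ≠ 1 → w ≠ 1 → ∃ (β : MulAut A) (j : ℕ), β v = w ∧
      ∀ u, β (σ u) = (σ ^ j) (β u))
    (hpow : ∀ j, 0 < j → j < q → ∃ β : MulAut A, ∀ u, β (σ u) = (σ ^ j) (β u)) :
    orderOf (p : ZMod q) = q - 1 := by
  letI := modOf hexp
  obtain ⟨h1, h2⟩ := toLin_props hexp σ hσq hfpf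
  have : Finite (Additive A) := inferInstanceAs (Finite A)
  have : Nontrivial (Additive A) := inferInstanceAs (Nontrivial A)
  apply orderOf_eq hpq (toLin hexp σ.toMonoidHom) h1 h2
  · intro v w hv hw
    obtain ⟨β, j, hβ, hβσ⟩ := htrans (Additive.toMul v) (Additive.toMul w) hv hw
    refine ⟨toLinEquiv hexp β, j, hβ, fun u => ?_⟩
    rw [toLin_pow]
    exact hβσ (Additive.toMul u)
  · intro j h0 h1
    obtain ⟨β, hβσ⟩ := hpow j h0 h1
    refine ⟨toLinEquiv hexp β, fun u => ?_⟩
    rw [toLin_pow]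
    exact hβσ (Additive.toMul u)

end Mul

section Grp

variable {A : Type*} [Group A] {p q : ℕ} [hp : Fact p.Prime] [hq : Fact q.Prime]

theorem grp_exists_iso [Finite A] (hcomm : ∀ a b : A, a * b = b * a)
    (hexp : ∀ a : A, a ^ p = 1) (hpq : p ≠ q)
    (hord : orderOf (p : ZMod q) = q - 1) (σ σ' : MulAut A) (hσq : σ ^ q = 1)
    (hfpf : ∀ a, σ a = a → a = 1) (hσq' : σ' ^ q = 1) (hfpf' : ∀ a, σ' a = a → a = 1) :
    ∃ β : MulAut A, ∀ a, β (σ a) = σ' (β a) := by
  letI : CommGroup A := { (inferInstance : Group A) with mul_comm := hcomm }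
  exact mul_exists_iso hexp hpq hord σ σ' hσq hfpf hσq' hfpf'

theorem grp_exists_trans [Finite A] (hcomm : ∀ a b : A, a * b = b * a)
    (hexp : ∀ a : A, a ^ p = 1) (hpq : p ≠ q)
    (hord : orderOf (p : ZMod q) = q - 1) (σ : MulAut A) (hσq : σ ^ q = 1)
    (hfpf : ∀ a, σ a = a → a = 1) (v w : A) (hv : v ≠ 1) (hw : w ≠ 1) :
    ∃ β : MulAut A, (∀ a, β (σ a) = σ (β a)) ∧ β v = w := by
  letI : CommGroup A := { (inferInstance : Group A) with mul_comm := hcomm }
  exact mul_exists_trans hexp hpq hord σ hσq hfpf v w hv hw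

theorem grp_orderOf_eq [Finite A] [Nontrivial A] (hcomm : ∀ a b : A, a * b = b * a)
    (hexp : ∀ a : A, a ^ p = 1) (hpq : p ≠ q)
    (σ : MulAut A) (hσq : σ ^ q = 1) (hfpf : ∀ a, σ a = a → a = 1)
    (htrans : ∀ v w : A, v ≠ 1 → w ≠ 1 → ∃ (β : MulAut A) (j : ℕ), β v = w ∧
      ∀ u, β (σ u) = (σ ^ j) (β u))
    (hpow : ∀ j, 0 < j → j < q → ∃ β : MulAut A, ∀ u, β (σ u) = (σ ^ j) (β u)) :
    orderOf (p : ZMod q) = q - 1 := by
  letI : CommGroup A := { (inferInstance : Group A) with mul_comm := hcomm }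
  exact mul_orderOf_eq hexp hpq σ hσq hfpf htrans hpow

end Grp

end Cfsg.Agent.Lib.Helper71Fpf
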