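import Mathlib

set_option autoImplicit false

namespace Cfsg.Agent.Lib.Helper71Orb

theorem card_eq_three_iff {Q : Type*} [Finite Q] (q0 q1 q2 : Q) (h01 : q0 ≠ q1) (h02 : q0 ≠ q2)
    (h12 : q1 ≠ q2) : Nat.card Q = 3 ↔ ∀ x : Q, x = q0 ∨ x = q1 ∨ x = q2 := by
  classical
  have := Fintype.ofFinite Q
  have hc : ({q0, q1, q2} : Finset Q).card = 3 := by
    rw [Finset.card_insert_of_notMem, Finset.card_insert_of_notMem, Finset.card_singleton]
    · simpa using h12
    · simp [h01, h02]
  rw [Nat.card_eq_fintype_card]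
  constructor
  · intro h x
    have h1 : ({q0, q1, q2} : Finset Q) = Finset.univ := by
      apply Finset.eq_univ_of_card
      rw [hc, h]
    have h2 : x ∈ ({q0, q1, q2} : Finset Q) := by rw [h1]; exact Finset.mem_univ x
    simpa using h2
  · intro h
    have h1 : ({q0, q1, q2} : Finset Q) = Finset.univ := by
      ext x
      simpa using h x
    rw [← Finset.card_univ, ← h1, hc]

theorem mk_eq_iff {G : Type*} [Group G] (x y : G) :
    (Quotient.mk'' x : MulAction.orbitRel.Quotient (MulAut G) G) = Quotient.mk'' y ↔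
      ∃ α : MulAut G, α y = x := by
  rw [Quotient.eq'']
  show MulAction.orbitRel (MulAut G) G x y ↔ _
  rw [MulAction.orbitRel_apply, MulAction.mem_orbit_iff]
  rfl

/-- Extending an automorphism of a normal subgroup with cyclic complement. -/
theorem exists_aut {G : Type*} [Group G] [Finite G] (A : Subgroup G) [hA : A.Normal] (y y' : G)
    (hord : orderOf y = orderOf y') (hdisj : A ⊓ Subgroup.zpowers y = ⊥)
    (hdisj' : A ⊓ Subgroup.zpowers y' = ⊥) (hgen : ∀ g : G, ∃ a ∈ A, ∃ i : ℕ, g = a * y ^ i)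
    (β : MulAut A) (hβ : ∀ a : A, (β (MulAut.conjNormal y a) : G) = y' * β a * y'⁻¹) :
    ∃ α : MulAut G, (∀ a : A, α a = β a) ∧ α y = y' := by
  classical
  choose fa hfa fi hfi using hgen
  let f : G → G := fun g => (β ⟨fa g, hfa g⟩ : G) * y' ^ (fi g)
  have hwd : ∀ (a : A) (i : ℕ), f (a * y ^ i) = β a * y' ^ i := by
    intro a i
    have h1 := hfi (a * y ^ i)
    have h2 : (fa (a * y ^ i))⁻¹ * a = y ^ (fi (a * y ^ i)) * (y ^ i)⁻¹ := by
      generalize fa (a * y ^ i) = c at h1
      generalize fi (a * y ^ i) = k at h1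
      have : (a : G) = c * y ^ k * (y ^ i)⁻¹ := by
        rw [← h1]; group
      rw [this]
      group
    have h3 : (fa (a * y ^ i))⁻¹ * a ∈ A ⊓ Subgroup.zpowers y := by
      refine ⟨A.mul_mem (A.inv_mem (hfa _)) a.2, ?_⟩
      rw [h2]
      exact Subgroup.mul_mem _ (Subgroup.pow_mem _ (Subgroup.mem_zpowers y) _)
        (Subgroup.inv_mem _ (Subgroup.pow_mem _ (Subgroup.mem_zpowers y) _))
    rw [hdisj, Subgroup.mem_bot] at h3
    have h4 : fa (a * y ^ i) = a := (inv_mul_eq_one.mp h3)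
    have h5 : y ^ (fi (a * y ^ i)) = y ^ i := by
      rw [h3] at h2
      exact (mul_inv_eq_one.mp h2.symm)
    have h6 : y' ^ (fi (a * y ^ i)) = y' ^ i := by
      rw [pow_eq_pow_iff_modEq] at h5 ⊢
      rw [← hord]; exact h5
    show (β ⟨fa (a * y ^ i), hfa _⟩ : G) * y' ^ (fi (a * y ^ i)) = β a * y' ^ i
    rw [h6]
    congr 3
    exact Subtype.ext h4
  have hiter : ∀ (i : ℕ) (b : A),
      (β (MulAut.conjNormal (y ^ i) b) : G) = y' ^ i * β b * (y' ^ i)⁻¹ := by
    intro i
    induction i with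
    | zero => intro b; simp
    | succ i ih =>
      intro b
      rw [pow_succ', map_mul, MulAut.mul_apply, hβ, ih, pow_succ']
      group
  have hmul : ∀ g h : G, f (g * h) = f g * f h := by
    intro g h
    obtain ⟨a, i, rfl⟩ : ∃ (a : A) (i : ℕ), g = a * y ^ i := ⟨⟨fa g, hfa g⟩, fi g, hfi g⟩
    obtain ⟨b, k, rfl⟩ : ∃ (b : A) (k : ℕ), h = b * y ^ k := ⟨⟨fa h, hfa h⟩, fi h, hfi h⟩
    have e : (a : G) * y ^ i * (b * y ^ k) =
        ((a * MulAut.conjNormal (y ^ i) b : A) : G) * y ^ (i + k) := by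
      rw [Subgroup.coe_mul, MulAut.conjNormal_apply, pow_add]
      group
    rw [e, hwd, hwd, hwd, map_mul, Subgroup.coe_mul, hiter, pow_add]
    group
  let F : G →* G := MonoidHom.mk' f hmul
  have hinj : Function.Injective F := by
    rw [injective_iff_map_eq_one]
    intro g hg
    obtain ⟨a, i, rfl⟩ : ∃ (a : A) (i : ℕ), g = a * y ^ i := ⟨⟨fa g, hfa g⟩, fi g, hfi g⟩
    have h1 : (β a : G) * y' ^ i = 1 := by
      rw [← hwd]; exact hg
    have h2 : (β a : G) ∈ A ⊓ Subgroup.zpowers y' := by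
      refine ⟨(β a).2, ?_⟩
      rw [eq_inv_of_mul_eq_one_left h1]
      exact Subgroup.inv_mem _ (Subgroup.pow_mem _ (Subgroup.mem_zpowers y') _)
    rw [hdisj', Subgroup.mem_bot] at h2
    have h3 : β a = 1 := Subtype.ext h2
    have h4 : a = 1 := by
      have := β.injective (h3.trans (map_one β).symm)
      exact this
    rw [h2, one_mul] at h1
    have h5 : y ^ i = 1 := by
      rw [← orderOf_dvd_iff_pow_eq_one] at h1 ⊢
      rw [hord]; exact h1
    rw [h4, h5]; simp
  have hbij : Function.Bijective F := Finite.injective_iff_bijective.mp hinj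
  refine ⟨MulEquiv.ofBijective F hbij, fun a => ?_, ?_⟩
  · have := hwd a 0
    rw [pow_zero, pow_zero, mul_one, mul_one] at this
    exact this
  · have := hwd 1 1
    rw [pow_one, pow_one, map_one, Subgroup.coe_one, one_mul, one_mul] at this
    exact this

end Cfsg.Agent.Lib.Helper71Orb
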