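import Mathlib
import Cfsg.Agent.Lib.Helper72Pi
import Cfsg.Agent.Lib.Helper72Class
import Cfsg.Agent.Lib.Helper71Ind

set_option autoImplicit false

namespace Cfsg.Agent.Lib.Helper71Pi

open Cfsg.Agent.Lib.Helper72Pi

/-- If `H` contains, for every prime, a subgroup of index prime to `p` in `K`, then `K ≤ H`. -/
theorem cover {X : Type*} [Group X] (H K : Subgroup X)
    (h : ∀ p : ℕ, p.Prime → ∃ P : Subgroup X, P ≤ H ∧ ¬ p ∣ P.relIndex K) : K ≤ H := by
  rw [← Subgroup.relIndex_eq_one]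
  by_contra hne
  obtain ⟨p, hp, hpd⟩ := Nat.exists_prime_and_dvd hne
  obtain ⟨P, hPH, hP⟩ := h p hp
  exact hP (hpd.trans (Subgroup.relIndex_dvd_of_le_left K hPH))

/-- Sylow subgroups of a subgroup, in ambient terms. -/
theorem exists_sylow_ambient {X : Type*} [Group X] (p : ℕ) [Fact p.Prime] (Z : Subgroup X)
    [Finite Z] (P' : Sylow p Z) :
    (P' : Subgroup Z).map Z.subtype ≤ Z ∧ IsPGroup p ((P' : Subgroup Z).map Z.subtype) ∧
      ¬ p ∣ ((P' : Subgroup Z).map Z.subtype).relIndex Z := by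
  refine ⟨?_, P'.isPGroup'.map _, ?_⟩
  · rintro _ ⟨x, -, rfl⟩; exact x.2
  · have : ((P' : Subgroup Z).map Z.subtype).relIndex Z = (P' : Subgroup Z).index := by
      rw [Subgroup.relIndex, Subgroup.subgroupOf,
        Subgroup.comap_map_eq_self_of_injective Z.subtype_injective]
    rw [this]
    exact P'.not_dvd_index

theorem conj_into {X : Type*} [Group X] [Finite X] (r : ℕ) [Fact r.Prime] (R C : Subgroup X)
    (hR : IsPGroup r R) (hC : ¬ r ∣ C.index) : ∃ g : X, ∀ x ∈ R, g * x * g⁻¹ ∈ C := by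
  obtain ⟨Q, -, hQC⟩ := Helper72Class.exists_sylow_le r C hC ⊥ IsPGroup.of_bot bot_le
  obtain ⟨R', hR'⟩ := hR.exists_le_sylow
  obtain ⟨g, hg⟩ := MulAction.exists_smul_eq X R' Q
  refine ⟨g, fun x hx => hQC ?_⟩
  rw [← hg, Sylow.coe_subgroup_smul]
  have h2 := Subgroup.smul_mem_pointwise_smul x (MulAut.conj g) (R' : Subgroup X) (hR' hx)
  simpa [MulAut.smul_def] using h2

theorem map_conj_of_normal {X : Type*} [Group X] (K : Subgroup X) [hK : K.Normal] (g : X) :
    K.map (MulAut.conj g).toMonoidHom = K := by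
  ext x
  constructor
  · rintro ⟨y, hy, rfl⟩
    exact hK.conj_mem y hy g
  · intro hx
    refine ⟨g⁻¹ * x * g⁻¹⁻¹, hK.conj_mem x hx g⁻¹, ?_⟩
    show g * (g⁻¹ * x * g⁻¹⁻¹) * g⁻¹ = x
    group

/-- An element of `M` whose order is prime to `|M : K|` lies in the normal subgroup `K`. -/
theorem mem_of_coprime_relIndex {G : Type*} [Group G] [Finite G] (K M : Subgroup G) [K.Normal]
    (hKM : K ≤ M) (x : G) (hx : x ∈ M) (hc : (orderOf x).Coprime (K.relIndex M)) : x ∈ K := by
  have hcard : Nat.card (M.map (QuotientGroup.mk' K)) = K.relIndex M := by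
    have h1 := Subgroup.relIndex_map_map (QuotientGroup.mk' K) K M
    rw [QuotientGroup.ker_mk', sup_idem, sup_eq_left.mpr hKM] at h1
    have h2 : K.map (QuotientGroup.mk' K) = ⊥ := by
      rw [Subgroup.map_eq_bot_iff, QuotientGroup.ker_mk']
    rw [h2, Subgroup.relIndex_bot_left] at h1
    exact h1
  have h1 : orderOf (QuotientGroup.mk' K x) ∣ orderOf x := orderOf_map_dvd _ x
  have h2 : orderOf (QuotientGroup.mk' K x) ∣ K.relIndex M := by
    rw [← hcard]
    have := orderOf_dvd_natCard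
      (⟨QuotientGroup.mk' K x, ⟨x, hx, rfl⟩⟩ : M.map (QuotientGroup.mk' K))
    rwa [← Subgroup.orderOf_coe] at this
  have h3 := Nat.eq_one_of_dvd_coprimes hc h1 h2
  rw [orderOf_eq_one_iff] at h3
  exact (QuotientGroup.eq_one_iff x).mp h3

theorem isPiElt_of_mem {X : Type*} [Group X] {π : Set ℕ} (A : Subgroup X) [Finite A]
    (hA : ∀ q : ℕ, q.Prime → q ∣ Nat.card A → q ∈ π) (x : X) (hx : x ∈ A) : IsPiElt π x := by
  intro q hq hqx
  apply hA q hq
  have := orderOf_dvd_natCard (⟨x, hx⟩ : A)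
  rw [Subgroup.orderOf_mk] at this
  exact hqx.trans this

theorem isPiElt_of_isPGroup {X : Type*} [Group X] {π : Set ℕ} {r : ℕ} (hr : r.Prime)
    (hrπ : r ∈ π) (R : Subgroup X) (hR : IsPGroup r R) (x : X) (hx : x ∈ R) : IsPiElt π x := by
  intro q hq hqx
  obtain ⟨k, hk⟩ := hR ⟨x, hx⟩
  have hk' : x ^ r ^ k = 1 := by
    have := congrArg Subtype.val hk
    simpa using this
  have h1 : q ∣ r ^ k := hqx.trans (orderOf_dvd_of_pow_eq_one hk')
  have h2 : q ∣ r := hq.dvd_of_dvd_pow h1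
  rw [(Nat.prime_dvd_prime_iff_eq hq hr).mp h2]
  exact hrπ

/-- The order of a subgroup all of whose elements are `π`-elements is a `π`-number. -/
theorem card_pi_of_forall {X : Type*} [Group X] {π : Set ℕ} (A : Subgroup X) [Finite A]
    (hA : ∀ x ∈ A, IsPiElt π x) : ∀ q : ℕ, q.Prime → q ∣ Nat.card A → q ∈ π := by
  intro q hq hqd
  have : Fact q.Prime := ⟨hq⟩
  obtain ⟨x, hx⟩ := exists_prime_orderOf_dvd_card' q hqd
  apply hA x x.2 q hq
  rw [Subgroup.orderOf_coe, hx]

/-- Split extension lemma: a normal `π'`-subgroup `K` of `π`-index such that `X = K C_X(Q)` for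
suitable Sylow subgroups `Q` of `K`. Then the `π`-elements form a subgroup. -/
theorem lemmaA {X : Type*} [Group X] [Finite X] (π : Set ℕ) (K : Subgroup X) [K.Normal]
    (hK : ∀ q : ℕ, q.Prime → q ∣ Nat.card K → q ∉ π)
    (hidx : ∀ q : ℕ, q.Prime → q ∣ K.index → q ∈ π)
    (hcen : ∀ q : ℕ, q.Prime → q ∉ π → ∃ Q : Subgroup X, ¬ q ∣ Q.relIndex K ∧
      K ⊔ Subgroup.centralizer (Q : Set X) = ⊤) :
    ∃ B : Subgroup X, ∀ x : X, x ∈ B ↔ IsPiElt π x := by
  -- (a)
  have ha : ∀ r : ℕ, r.Prime → r ∈ π → ∀ R : Subgroup X, IsPGroup r R →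
      K ≤ Subgroup.centralizer (R : Set X) := by
    intro r hr hrπ R hR
    have : Fact r.Prime := ⟨hr⟩
    apply cover
    intro q hq
    by_cases hqπ : q ∈ π
    · refine ⟨⊥, bot_le, ?_⟩
      rw [Subgroup.relIndex_bot_left]
      exact fun h => hK q hq h hqπ
    · obtain ⟨Q, hQ, hQtop⟩ := hcen q hq hqπ
      have hidxC : (Subgroup.centralizer (Q : Set X)).index ∣ Nat.card K := by
        have h1 := Helper71Ind.relIndex_eq_relIndex_sup (Subgroup.centralizer (Q : Set X)) K
        rw [sup_comm, hQtop, Subgroup.relIndex_top_right] at h1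
        rw [← h1]
        exact Subgroup.relIndex_dvd_card _ _
      have hrC : ¬ r ∣ (Subgroup.centralizer (Q : Set X)).index :=
        fun h => hK r hr (h.trans hidxC) hrπ
      obtain ⟨g, hg⟩ := conj_into r R _ hR hrC
      refine ⟨Q.map (MulAut.conj g⁻¹).toMonoidHom, ?_, ?_⟩
      · rintro _ ⟨y, hy, rfl⟩
        rw [Subgroup.mem_centralizer_iff]
        intro x hx
        have h1 := (Subgroup.mem_centralizer_iff.mp (hg x hx)) y hy
        show x * (g⁻¹ * y * g⁻¹⁻¹) = g⁻¹ * y * g⁻¹⁻¹ * x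
        calc x * (g⁻¹ * y * g⁻¹⁻¹) = g⁻¹ * ((g * x * g⁻¹) * y) * g := by group
          _ = g⁻¹ * (y * (g * x * g⁻¹)) * g := by rw [h1]
          _ = g⁻¹ * y * g⁻¹⁻¹ * x := by group
      · have h1 := Subgroup.relIndex_map_map_of_injective Q K
          (f := (MulAut.conj g⁻¹).toMonoidHom) (MulAut.conj g⁻¹).injective
        rw [map_conj_of_normal K] at h1
        rw [h1]; exact hQ
  -- (b)
  have hb : ∀ a : X, IsPiElt π a → a ∈ Subgroup.centralizer (K : Set X) := by
    intro a hpa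
    have : Subgroup.zpowers a ≤ Subgroup.centralizer (K : Set X) := by
      apply cover
      intro p hp
      have : Fact p.Prime := ⟨hp⟩
      by_cases hpπ : p ∈ π
      · obtain ⟨-, h2, h3⟩ := exists_sylow_ambient p (Subgroup.zpowers a) default
        exact ⟨_, Subgroup.le_centralizer_iff.mp (ha p hp hpπ _ h2), h3⟩
      · refine ⟨⊥, bot_le, ?_⟩
        rw [Subgroup.relIndex_bot_left, Nat.card_zpowers]
        exact fun h => hpπ (hpa p hp h)
    exact this (Subgroup.mem_zpowers a)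
  -- (c)
  have hcop : (Nat.card K).Coprime K.index :=
    Nat.coprime_of_dvd fun k hk h1 h2 => hK k hk h1 (hidx k hk h2)
  obtain ⟨A, hA⟩ := Subgroup.exists_right_complement'_of_coprime hcop
  have hAcard : Nat.card A = K.index := hA.symm.index_eq_card.symm
  have hApi : ∀ x ∈ A, IsPiElt π x := by
    intro x hx
    apply isPiElt_of_mem A _ x hx
    rw [hAcard]; exact hidx
  refine ⟨A, fun x => ⟨hApi x, fun hx => ?_⟩⟩
  obtain ⟨⟨⟨k, hk⟩, ⟨a, ha'⟩⟩, hka, -⟩ := hA.existsUnique x
  have hka' : k * a = x := hka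
  have hcomm : Commute k a := (Subgroup.mem_centralizer_iff.mp (hb a (hApi a ha'))) k hk
  have h1 : k ^ orderOf x * a ^ orderOf x = 1 := by
    rw [← hcomm.mul_pow, hka', pow_orderOf_eq_one]
  have h2 : k ^ orderOf x = 1 := by
    have h3 : k ^ orderOf x = (a ^ orderOf x)⁻¹ := eq_inv_of_mul_eq_one_left h1
    have h4 : k ^ orderOf x ∈ K ⊓ A :=
      ⟨K.pow_mem hk _, by rw [h3]; exact A.inv_mem (A.pow_mem ha' _)⟩
    rwa [hA.disjoint.eq_bot, Subgroup.mem_bot] at h4
  have h3 : k = 1 := by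
    rw [← orderOf_eq_one_iff]
    by_contra hne
    obtain ⟨q, hq, hqd⟩ := Nat.exists_prime_and_dvd hne
    have h5 : q ∣ Nat.card K := by
      have := orderOf_dvd_natCard (⟨k, hk⟩ : K)
      rw [Subgroup.orderOf_mk] at this
      exact hqd.trans this
    exact hK q hq h5 (hx q hq (hqd.trans (orderOf_dvd_of_pow_eq_one h2)))
  rw [← hka', h3, one_mul]; exact ha'

/-- The elementwise form of "`N_G(H)/C_G(H)` is a `π'`-group for all `π'`-subgroups `H`". -/
def HomCond (π : Set ℕ) (G : Type*) [Group G] : Prop :=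
  ∀ H : Subgroup G, (∀ p : ℕ, p.Prime → p ∣ Nat.card H → p ∉ π) →
    ∀ x ∈ Subgroup.normalizer (H : Set G), IsPiElt π x → x ∈ Subgroup.centralizer (H : Set G)

theorem homCond_of_relIndex {G : Type*} [Group G] [Finite G] (π : Set ℕ)
    (hhom : ∀ H : Subgroup G, H ≠ ⊥ → (∀ p : ℕ, p.Prime → p ∣ Nat.card ↥H → p ∉ π) →
      ∀ p : ℕ, p.Prime → p ∣ (Subgroup.centralizer (H : Set G)).relIndex
        (Subgroup.normalizer (H : Set G)) → p ∉ π) : HomCond π G := by
  intro H hH x hx hpx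
  by_cases hbot : H = ⊥
  · subst hbot
    rw [Subgroup.mem_centralizer_iff]
    intro h hh
    have : h = 1 := hh
    rw [this]; simp
  have hker := H.normalizerMonoidHom_ker
  have hidx : H.normalizerMonoidHom.ker.index =
      (Subgroup.centralizer (H : Set G)).relIndex (Subgroup.normalizer (H : Set G)) := by
    rw [hker]; rfl
  rw [Subgroup.index_ker] at hidx
  set f := H.normalizerMonoidHom
  have h1 : orderOf (f ⟨x, hx⟩) ∣ orderOf x := by
    have := orderOf_map_dvd f (⟨x, hx⟩ : Subgroup.normalizer (H : Set G))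
    rwa [Subgroup.orderOf_mk] at this
  have h2 : orderOf (f ⟨x, hx⟩) ∣ Nat.card f.range := by
    have := orderOf_dvd_natCard (⟨f ⟨x, hx⟩, ⟨_, rfl⟩⟩ : f.range)
    rwa [← Subgroup.orderOf_coe] at this
  have h4 : orderOf (f ⟨x, hx⟩) = 1 := by
    by_contra hne
    obtain ⟨q, hq, hqd⟩ := Nat.exists_prime_and_dvd hne
    exact hhom H hbot hH q hq (hidx ▸ hqd.trans h2) (hpx q hq (hqd.trans h1))
  rw [orderOf_eq_one_iff] at h4
  have h5 : (⟨x, hx⟩ : Subgroup.normalizer (H : Set G)) ∈ f.ker := h4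
  rw [hker, Subgroup.mem_subgroupOf] at h5
  exact h5

theorem HomCond.subgroup {G : Type*} [Group G] {π : Set ℕ} (h : HomCond π G)
    (M : Subgroup G) : HomCond π M := by
  intro H hH x hx hpx
  have h1 : ∀ p : ℕ, p.Prime → p ∣ Nat.card (H.map M.subtype) → p ∉ π := by
    rw [Subgroup.card_map_of_injective M.subtype_injective]; exact hH
  have h2 : (x : G) ∈ Subgroup.normalizer ((H.map M.subtype : Subgroup G) : Set G) := by
    rw [Subgroup.mem_normalizer_iff]
    intro y
    constructor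
    · rintro ⟨z, hz, rfl⟩
      exact ⟨x * z * x⁻¹, (Subgroup.mem_normalizer_iff.mp hx z).mp hz, rfl⟩
    · rintro ⟨z, hz, hzy⟩
      have hy : y = ((x⁻¹ * z * x : M) : G) := by
        have : (z : G) = x * y * (x : G)⁻¹ := hzy
        simp [this, mul_assoc]
      refine ⟨x⁻¹ * z * x, ?_, hy.symm⟩
      apply (Subgroup.mem_normalizer_iff.mp hx _).mpr
      have e : x * (x⁻¹ * z * x) * x⁻¹ = z := by group
      rw [e]; exact hz
  have h3 : IsPiElt π (x : G) := by
    intro q hq hqd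
    rw [Subgroup.orderOf_coe] at hqd
    exact hpx q hq hqd
  have h4 := h _ h1 _ h2 h3
  rw [Subgroup.mem_centralizer_iff] at h4 ⊢
  intro y hy
  exact Subtype.ext (h4 y ⟨y, hy, rfl⟩)

/-- Core step: `K` normal of `π`-index, the `π`-elements of `K` form a subgroup. -/
theorem core {G : Type*} [Group G] [Finite G] (π : Set ℕ) (hhom : HomCond π G)
    (K : Subgroup G) [hKn : K.Normal] (hidx : ∀ q : ℕ, q.Prime → q ∣ K.index → q ∈ π)
    (L : Subgroup G) (hL : ∀ x : G, x ∈ L ↔ x ∈ K ∧ IsPiElt π x) :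
    ∃ B : Subgroup G, ∀ x : G, x ∈ B ↔ IsPiElt π x := by
  have hLK : L ≤ K := fun x hx => ((hL x).mp hx).1
  have hLn : L.Normal := by
    constructor
    intro x hx g
    rw [hL] at hx ⊢
    exact ⟨hKn.conj_mem x hx.1 g, hx.2.conj g⟩
  have hLcard : ∀ q : ℕ, q.Prime → q ∣ Nat.card L → q ∈ π :=
    card_pi_of_forall L fun x hx => ((hL x).mp hx).2
  set f := QuotientGroup.mk' L with hf
  have hfs : Function.Surjective f := QuotientGroup.mk'_surjective L
  have hker : f.ker = L := QuotientGroup.ker_mk' L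
  have : (K.map f).Normal := hKn.map f hfs
  have hrel : ∀ Q : Subgroup G, (Q.map f).relIndex (K.map f) = (Q ⊔ L).relIndex K := by
    intro Q
    rw [Subgroup.relIndex_map_map, hker, sup_eq_left.mpr hLK]
  have hcardK : Nat.card (K.map f) = L.relIndex K := by
    have h1 := hrel ⊥
    rw [Subgroup.map_bot, Subgroup.relIndex_bot_left, bot_sup_eq] at h1
    exact h1
  have hB := lemmaA π (K.map f)
    (by
      intro q hq hqd hqπ
      have : Fact q.Prime := ⟨hq⟩
      obtain ⟨h1, h2, h3⟩ := exists_sylow_ambient q K default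
      apply h3
      rw [hcardK] at hqd
      refine hqd.trans (Subgroup.relIndex_dvd_of_le_left K ?_)
      intro x hx
      exact (hL x).mpr ⟨h1 hx, isPiElt_of_isPGroup hq hqπ _ h2 x hx⟩)
    (by
      intro q hq hqd
      apply hidx q hq
      rw [Subgroup.index_map, hker, sup_eq_left.mpr hLK, MonoidHom.range_eq_top.mpr hfs,
        Subgroup.index_top, mul_one] at hqd
      exact hqd)
    (by
      intro q hq hqπ
      have : Fact q.Prime := ⟨hq⟩
      let Q' : Sylow q K := default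
      obtain ⟨h1, h2, h3⟩ := exists_sylow_ambient q K Q'
      set Q := (Q' : Subgroup K).map K.subtype with hQ
      refine ⟨Q.map f, ?_, ?_⟩
      · rw [hrel]
        exact fun h => h3 (h.trans (Subgroup.relIndex_dvd_of_le_left K le_sup_left))
      · have hfr := Sylow.normalizer_sup_eq_top Q'
        have hQcard : ∀ p : ℕ, p.Prime → p ∣ Nat.card Q → p ∉ π := by
          intro p hp hpd
          obtain ⟨k, hk⟩ := IsPGroup.iff_card.mp h2
          rw [hk] at hpd
          rw [(Nat.prime_dvd_prime_iff_eq hp hq).mp (hp.dvd_of_dvd_pow hpd)]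
          exact hqπ
        have hN : Subgroup.normalizer (Q : Set G) ≤ K ⊔ Subgroup.centralizer (Q : Set G) := by
          intro n hn
          obtain ⟨y, z, hy, hz, hyz, hyπ, hzπ⟩ := exists_pi_split π n (orderOf_pos n).ne'
          have hyN : y ∈ Subgroup.normalizer (Q : Set G) := (Subgroup.zpowers_le.mpr hn) hy
          have hyC := hhom Q hQcard y hyN hyπ
          have hzK : z ∈ K := by
            apply mem_of_coprime_relIndex K ⊤ le_top z (Subgroup.mem_top z)
            rw [Subgroup.relIndex_top_right]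
            exact Nat.coprime_of_dvd fun k hk hk1 hk2 => hzπ k hk hk1 (hidx k hk hk2)
          rw [← hyz]
          exact Subgroup.mul_mem _ (Subgroup.mem_sup_right hyC) (Subgroup.mem_sup_left hzK)
        have htop : K ⊔ Subgroup.centralizer (Q : Set G) = ⊤ := by
          rw [eq_top_iff, ← hfr]
          exact sup_le hN le_sup_left
        rw [eq_top_iff, ← Subgroup.map_top_of_surjective f hfs, ← htop, Subgroup.map_sup]
        apply sup_le_sup_left
        rintro _ ⟨c, hc, rfl⟩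
        rw [Subgroup.mem_centralizer_iff]
        rintro _ ⟨y, hy, rfl⟩
        rw [← map_mul, ← map_mul, (Subgroup.mem_centralizer_iff.mp hc) y hy])
  obtain ⟨B, hB⟩ := hB
  refine ⟨B.comap f, fun x => ?_⟩
  rw [Subgroup.mem_comap, hB]
  constructor
  · intro h q hq hqd
    have h1 : x ^ orderOf (f x) ∈ L := by
      have h0 : x ^ orderOf (f x) ∈ f.ker := by
        rw [MonoidHom.mem_ker, map_pow, pow_orderOf_eq_one]
      rwa [hker] at h0
    have h2 : x ^ (orderOf (f x) * orderOf (x ^ orderOf (f x))) = 1 := by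
      rw [pow_mul, pow_orderOf_eq_one]
    have h3 := hqd.trans (orderOf_dvd_of_pow_eq_one h2)
    rcases (Nat.Prime.dvd_mul hq).mp h3 with h4 | h4
    · exact h q hq h4
    · exact ((hL _).mp h1).2 q hq h4
  · intro h
    exact h.of_orderOf_dvd (orderOf_map_dvd f x)

/-- Ambient form of the core step. -/
theorem core_ambient {G : Type*} [Group G] [Finite G] (π : Set ℕ) (hhom : HomCond π G)
    (K M : Subgroup G) [hKn : K.Normal]
    (hidx : ∀ q : ℕ, q.Prime → q ∣ K.relIndex M → q ∈ π)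
    (L : Subgroup G) (hL : ∀ x : G, x ∈ L ↔ x ∈ K ∧ IsPiElt π x) :
    ∃ B : Subgroup G, ∀ x : G, x ∈ B ↔ x ∈ M ∧ IsPiElt π x := by
  have hpi : ∀ x : M, IsPiElt π x ↔ IsPiElt π (x : G) := by
    intro x
    unfold IsPiElt
    rw [Subgroup.orderOf_coe]
  obtain ⟨B, hB⟩ := core π (hhom.subgroup M) (K.subgroupOf M) hidx (L.subgroupOf M) (by
    intro x
    rw [Subgroup.mem_subgroupOf, Subgroup.mem_subgroupOf, hL, hpi])
  refine ⟨B.map M.subtype, fun x => ?_⟩
  constructor
  · rintro ⟨y, hy, rfl⟩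
    exact ⟨y.2, (hpi y).mp ((hB y).mp hy)⟩
  · rintro ⟨hx, hxπ⟩
    exact ⟨⟨x, hx⟩, (hB _).mpr ((hpi _).mpr hxπ), rfl⟩

end Cfsg.Agent.Lib.Helper71Pi
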