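import Mathlib
import Cfsg.Agent.Lib.Helper71ZaDefs

/-!
# Zassenhaus project: elementary group lemmas
-/

set_option autoImplicit false

namespace Cfsg.Agent.Lib.Helper71ZaGrp

open Cfsg.Agent.Lib.Helper71ZaDefs Subgroup

section grp
variable {H : Type*} [Group H]

theorem orderOf_cj (g x : H) : orderOf (g * x * g⁻¹) = orderOf x :=
  (MulAut.conj g).orderOf_eq x

theorem conj_mem_Iset {x i : H} (g : H) (hg : g * x = x * g) (hi : i ∈ Iset x) :
    g * i * g⁻¹ ∈ Iset x := by
  obtain ⟨h1, h2⟩ := hi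
  refine ⟨?_, ?_⟩
  · rw [← h1]; exact orderOf_cj g i
  · rw [← h2]
    have : g * i * g⁻¹ * x = g * (i * x) * g⁻¹ := by
      have hx : g⁻¹ * x = x * g⁻¹ := by
        calc g⁻¹ * x = g⁻¹ * (x * g) * g⁻¹ := by group
          _ = g⁻¹ * (g * x) * g⁻¹ := by rw [hg]
          _ = x * g⁻¹ := by group
      calc g * i * g⁻¹ * x = g * i * (g⁻¹ * x) := by group
        _ = g * i * (x * g⁻¹) := by rw [hx]
        _ = g * (i * x) * g⁻¹ := by group
    rw [this]
    exact orderOf_cj g (i * x)

theorem closure_swap {x i₁ i₂ b : H} (hb : b = i₂ ∨ b = x * i₂ * x⁻¹ ∨ b = x⁻¹ * i₂ * x) :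
    closure ({i₁, i₂, x} : Set H) = closure {i₁, b, x} := by
  apply le_antisymm
  · rw [closure_le]
    have h1 : i₁ ∈ closure ({i₁, b, x} : Set H) := subset_closure (by simp)
    have hbm : b ∈ closure ({i₁, b, x} : Set H) := subset_closure (by simp)
    have hx : x ∈ closure ({i₁, b, x} : Set H) := subset_closure (by simp)
    rintro y (rfl | rfl | rfl)
    · exact h1
    · rcases hb with rfl | rfl | rfl
      · exact hbm
      · have := mul_mem (mul_mem (inv_mem hx) hbm) hx
        simpa [mul_assoc] using this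
      · have := mul_mem (mul_mem hx hbm) (inv_mem hx)
        simpa [mul_assoc] using this
    · exact hx
  · rw [closure_le]
    have h1 : i₁ ∈ closure ({i₁, i₂, x} : Set H) := subset_closure (by simp)
    have h2 : i₂ ∈ closure ({i₁, i₂, x} : Set H) := subset_closure (by simp)
    have hx : x ∈ closure ({i₁, i₂, x} : Set H) := subset_closure (by simp)
    rintro y (rfl | rfl | rfl)
    · exact h1
    · rcases hb with rfl | rfl | rfl
      · exact h2
      · exact mul_mem (mul_mem hx h2) (inv_mem hx)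
      · exact mul_mem (mul_mem (inv_mem hx) h2) hx
    · exact hx

theorem mem_Iset_of {x i₂ b : H} (h₂ : i₂ ∈ Iset x)
    (hb : b = i₂ ∨ b = x * i₂ * x⁻¹ ∨ b = x⁻¹ * i₂ * x) : b ∈ Iset x := by
  rcases hb with rfl | rfl | rfl
  · exact h₂
  · exact conj_mem_Iset x rfl h₂
  · have := conj_mem_Iset x⁻¹ (by group) h₂
    simpa using this

end grp

end Cfsg.Agent.Lib.Helper71ZaGrp
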