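import Mathlib

/-!
# Zassenhaus project: non-commutative calculus
-/

set_option autoImplicit false

namespace Cfsg.Agent.Lib.Helper71ZaCalc

variable {R : Type*} [Ring R]

/-- the relations of an element of `Iset x` -/
structure Rel (X I : R) : Prop where
  sq : I * I = -1
  six : I * X + X * I + I = 1

variable {X I I' : R}

theorem x0_sq (hX : X * X + X + 1 = 0) : (2 * X + 1) * (2 * X + 1) = -3 := by
  have : (2 * X + 1) * (2 * X + 1) = 4 * (X * X + X + 1) - 3 := by grind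
  rw [this, hX]; grind

theorem Rel.x0 (h : Rel X I) : I * (2 * X + 1) + (2 * X + 1) * I = 2 := by
  have : I * (2 * X + 1) + (2 * X + 1) * I = 2 * (I * X + X * I + I) := by grind
  rw [this, h.six]; grind

/-- `A X = X⁻¹ A` -/
theorem Rel.AX (hX : X * X + X + 1 = 0) (h : Rel X I) :
    (3 * I + (2 * X + 1)) * X = (-1 - X) * (3 * I + (2 * X + 1)) := by
  have : (3 * I + (2 * X + 1)) * X - (-1 - X) * (3 * I + (2 * X + 1)) =
      3 * (I * X + X * I + I) + 4 * (X * X + X + 1) - 3 := by grind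
  rw [h.six, hX] at this
  have h2 : (3 : R) * 1 + 4 * 0 - 3 = 0 := by grind
  rw [h2] at this
  exact sub_eq_zero.mp this

/-- `X A = A X⁻¹` -/
theorem Rel.XA (hX : X * X + X + 1 = 0) (h : Rel X I) :
    X * (3 * I + (2 * X + 1)) = (3 * I + (2 * X + 1)) * (-1 - X) := by
  have h1 := h.AX hX
  have : (3 * I + (2 * X + 1)) * (-1 - X) = -(3 * I + (2 * X + 1)) - (3 * I + (2 * X + 1)) * X := by
    grind
  rw [this, h1]; grind

theorem Rel.A_sq (hX : X * X + X + 1 = 0) (h : Rel X I) :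
    (3 * I + (2 * X + 1)) * (3 * I + (2 * X + 1)) = -6 := by
  have : (3 * I + (2 * X + 1)) * (3 * I + (2 * X + 1)) =
      9 * (I * I) + 3 * (I * (2 * X + 1) + (2 * X + 1) * I) + (2 * X + 1) * (2 * X + 1) := by
    grind
  rw [this, h.sq, h.x0, x0_sq hX]; grind

/-- anticommutators -/
theorem Rel.anti (hX : X * X + X + 1 = 0) (h : Rel X I) (h' : Rel X I') :
    9 * (I * I' + I' * I) = (3 * I + (2 * X + 1)) * (3 * I' + (2 * X + 1)) +
      (3 * I' + (2 * X + 1)) * (3 * I + (2 * X + 1)) - 6 := by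
  have : (3 * I + (2 * X + 1)) * (3 * I' + (2 * X + 1)) +
      (3 * I' + (2 * X + 1)) * (3 * I + (2 * X + 1)) = 9 * (I * I' + I' * I) +
      3 * (I * (2 * X + 1) + (2 * X + 1) * I) + 3 * (I' * (2 * X + 1) + (2 * X + 1) * I') +
      2 * ((2 * X + 1) * (2 * X + 1)) := by grind
  rw [this, h.x0, h'.x0, x0_sq hX]; grind

/-- `Π = A A'` commutes with `X` -/
theorem Rel.comm_prod (hX : X * X + X + 1 = 0) (h : Rel X I) (h' : Rel X I') :
    X * ((3 * I + (2 * X + 1)) * (3 * I' + (2 * X + 1))) =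
      ((3 * I + (2 * X + 1)) * (3 * I' + (2 * X + 1))) * X := by
  rw [← mul_assoc, h.XA hX, mul_assoc, ← h'.AX hX, mul_assoc]

theorem Rel.prod_prod (hX : X * X + X + 1 = 0) (h : Rel X I) (h' : Rel X I') :
    ((3 * I' + (2 * X + 1)) * (3 * I + (2 * X + 1))) *
      ((3 * I + (2 * X + 1)) * (3 * I' + (2 * X + 1))) = 36 := by
  have : ((3 * I' + (2 * X + 1)) * (3 * I + (2 * X + 1))) *
      ((3 * I + (2 * X + 1)) * (3 * I' + (2 * X + 1))) =
      (3 * I' + (2 * X + 1)) * ((3 * I + (2 * X + 1)) * (3 * I + (2 * X + 1))) *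
        (3 * I' + (2 * X + 1)) := by noncomm_ring
  rw [this, h.A_sq hX]
  have h2 : (3 * I' + (2 * X + 1)) * (-6) * (3 * I' + (2 * X + 1)) =
      (-6) * ((3 * I' + (2 * X + 1)) * (3 * I' + (2 * X + 1))) := by grind
  rw [h2, h'.A_sq hX]; grind

/-- the `A` of the conjugate `x i x⁻¹` -/
theorem Rel.A_conj (hX : X * X + X + 1 = 0) (h : Rel X I) :
    3 * (X * I * (-1 - X)) + (2 * X + 1) = (3 * I + (2 * X + 1)) * X := by
  have h1 : 3 * (X * I * (-1 - X)) + (2 * X + 1) =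
      X * (3 * I + (2 * X + 1)) * (-1 - X) + (2 * X + 1) * (X * X + X + 1) := by grind
  have h2 : (3 * I + (2 * X + 1)) * (-1 - X) * (-1 - X) =
      (3 * I + (2 * X + 1)) * X + (3 * I + (2 * X + 1)) * (X * X + X + 1) := by grind
  rw [h1, h.XA hX, h2, hX]; grind

/-- the `A` of the conjugate `x⁻¹ i x` -/
theorem Rel.A_conj' (hX : X * X + X + 1 = 0) (h : Rel X I) :
    3 * ((-1 - X) * I * X) + (2 * X + 1) = (3 * I + (2 * X + 1)) * (-1 - X) := by
  have h1 : 3 * ((-1 - X) * I * X) + (2 * X + 1) =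
      (-1 - X) * (3 * I + (2 * X + 1)) * X + (2 * X + 1) * (X * X + X + 1) := by grind
  have h2 : (3 * I + (2 * X + 1)) * X * X =
      (3 * I + (2 * X + 1)) * (-1 - X) + (3 * I + (2 * X + 1)) * (X * X + X + 1) := by grind
  rw [h1, ← h.AX hX, h2, hX]; grind

end Cfsg.Agent.Lib.Helper71ZaCalc
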