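import Mathlib
import Cfsg.Agent.Lib.Helper71ZaDefs
import Cfsg.Agent.Lib.Helper76ZaOPS
import Cfsg.Agent.Lib.Helper76ZaZ12
import Cfsg.Agent.Lib.Helper71ZaCalc

/-!
# Zassenhaus project: basic translations from group elements to operators
-/

set_option autoImplicit false

namespace Cfsg.Agent.Lib.Helper71ZaBasic

open Cfsg.Agent.Lib.Helper71ZaDefs Cfsg.Agent.Lib.Helper76ZaOPS Cfsg.Agent.Lib.Helper76ZaZ12
  Cfsg.Agent.Lib.Helper71ZaCalc Subgroup

section ops
variable {E : Type*} [Field E] {H : Type*} [Group H] [Finite H] {V : Type*} [AddCommGroup V]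
  [Module E V] {ρ : Representation E H V}

theorem hX_of (hρ : Fpf ρ) {x : H} (hx : orderOf x = 3) : ρ x * ρ x + ρ x + 1 = 0 := by
  have h1 := ops_three hρ hx
  have h2 := (ops_inv (ρ := ρ) x).1
  have : ρ x * ρ x + ρ x + 1 = ρ x * (ρ x + ρ x⁻¹ + 1) - (ρ x * ρ x⁻¹ - 1) := by grind
  rw [this, h1, h2]; grind

theorem inv_of (hρ : Fpf ρ) {x : H} (hx : orderOf x = 3) : ρ x⁻¹ = -1 - ρ x := by
  have h1 := ops_three hρ hx
  rw [← h1]; grind

theorem rel_of (hρ : Fpf ρ) {x i : H} (hx : orderOf x = 3) (hi : i ∈ Iset x) :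
    Rel (ρ x) (ρ i) := by
  refine ⟨(ops_four hρ hi.1).1, ?_⟩
  have h6 := ops_six hρ hi.2
  rw [mul_inv_rev, map_mul, map_mul, inv_of hρ hx, (ops_four hρ hi.1).2] at h6
  rw [← h6]; noncomm_ring

/-- `ρ (i b) + ρ (i b)⁻¹` is the anticommutator -/
theorem anti_of (hρ : Fpf ρ) {i b : H} (hi : orderOf i = 4) (hb : orderOf b = 4) :
    ρ (i * b) + ρ (i * b)⁻¹ = ρ i * ρ b + ρ b * ρ i := by
  rw [mul_inv_rev, map_mul, map_mul, (ops_four hρ hi).2, (ops_four hρ hb).2]; noncomm_ring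

end ops

section vec
variable {E V : Type*} [Field E] [AddCommGroup V] [Module E V]

theorem num_apply (n : ℕ) [n.AtLeastTwo] (v : V) :
    (OfNat.ofNat n : Module.End E V) v = (OfNat.ofNat n : E) • v := by
  rw [← map_ofNat (algebraMap E (Module.End E V)) n, Module.algebraMap_end_apply]

theorem num_cancel (n : ℕ) [n.AtLeastTwo] (hn : (OfNat.ofNat n : E) ≠ 0) {f : Module.End E V}
    (h : (OfNat.ofNat n : Module.End E V) * f = 0) : f = 0 := by
  ext v
  have h1 := congrArg (fun g : Module.End E V => g v) h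
  simp only [Module.End.mul_apply, LinearMap.zero_apply] at h1
  rw [num_apply] at h1
  simpa using (smul_eq_zero.mp h1).resolve_left hn

end vec

end Cfsg.Agent.Lib.Helper71ZaBasic
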