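import Mathlib

/-!
# Zassenhaus project: the numerical lemma
-/

set_option autoImplicit false

namespace Cfsg.Agent.Lib.Helper71ZaNum

theorem num {E : Type*} [Field E] (h2 : (2 : E) ≠ 0) (h3 : (3 : E) ≠ 0) (t₀ t₁ t₂ : E)
    (hs : t₀ + t₁ + t₂ = -2) (hq : t₀ ^ 2 + t₁ ^ 2 + t₂ ^ 2 = 4)
    (h₀ : t₀ = 0 ∨ t₀ = 1 ∨ ((5 : E) ≠ 0 ∧ t₀ ^ 2 + t₀ - 1 = 0) ∨ ((5 : E) ≠ 0 ∧ t₀ ^ 2 - t₀ - 1 = 0))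
    (h₁ : t₁ = 0 ∨ t₁ = 1 ∨ ((5 : E) ≠ 0 ∧ t₁ ^ 2 + t₁ - 1 = 0) ∨ ((5 : E) ≠ 0 ∧ t₁ ^ 2 - t₁ - 1 = 0))
    (h₂ : t₂ = 0 ∨ t₂ = 1 ∨ ((5 : E) ≠ 0 ∧ t₂ ^ 2 + t₂ - 1 = 0) ∨ ((5 : E) ≠ 0 ∧ t₂ ^ 2 - t₂ - 1 = 0)) :
    False := by
  have h4 : (4 : E) ≠ 0 := by
    have : (4 : E) = 2 * 2 := by norm_num
    rw [this]; exact mul_ne_zero h2 h2
  have h6 : (6 : E) ≠ 0 := by
    have : (6 : E) = 2 * 3 := by norm_num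
    rw [this]; exact mul_ne_zero h2 h3
  have h8 : (8 : E) ≠ 0 := by
    have : (8 : E) = 2 * 4 := by norm_num
    rw [this]; exact mul_ne_zero h2 h4
  have h9 : (9 : E) ≠ 0 := by
    have : (9 : E) = 3 * 3 := by norm_num
    rw [this]; exact mul_ne_zero h3 h3
  rcases h₀ with h₀ | h₀ | ⟨h5, h₀⟩ | ⟨h5, h₀⟩ <;> rcases h₁ with h₁ | h₁ | ⟨h5', h₁⟩ | ⟨h5', h₁⟩ <;>
    rcases h₂ with h₂ | h₂ | ⟨h5'', h₂⟩ | ⟨h5'', h₂⟩ <;> grind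

end Cfsg.Agent.Lib.Helper71ZaNum
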