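import Mathlib
import Cfsg.Agent.Lib.Helper71ZaDefs
import Cfsg.Agent.Lib.Helper76ZaOPS
import Cfsg.Agent.Lib.Helper76ZaZ12

set_option autoImplicit false
set_option linter.unusedSectionVars false

namespace Cfsg.Agent.Lib.Helper76ZaSCA

open Cfsg.Agent.Lib.Helper71ZaDefs Subgroup Cfsg.Agent.Lib.Helper76ZaOPS
  Cfsg.Agent.Lib.Helper76ZaZ12

/-- the closure of a commuting set is commutative -/
theorem comm_closure {G : Type*} [Group G] (S : Set G) (hS : ∀ a ∈ S, ∀ b ∈ S, a * b = b * a) :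
    ∀ a ∈ closure S, ∀ b ∈ closure S, a * b = b * a := by
  intro a ha b hb
  have := (isMulCommutative_closure hS).is_comm.comm ⟨a, ha⟩ ⟨b, hb⟩
  exact congrArg Subtype.val this

/-- in a finite cyclic group the solutions of `c ^ r = 1` are the powers of any element of order
`r`. -/
theorem mem_zpowers_of_cyclic {Z : Type*} [Group Z] [Finite Z] [IsCyclic Z] {r : ℕ} (hr : 0 < r)
    {c₀ c : Z} (h0 : orderOf c₀ = r) (hc : c ^ r = 1) : c ∈ Subgroup.zpowers c₀ := by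
  classical
  have : Fintype Z := Fintype.ofFinite Z
  have h1 := IsCyclic.card_pow_eq_one_le (α := Z) hr
  let S : Finset Z := Finset.univ.filter (fun a : Z => a ^ r = 1)
  let T : Finset Z := Finset.univ.filter (fun a : Z => a ∈ Subgroup.zpowers c₀)
  have hTS : T ⊆ S := by
    intro a ha
    simp only [T, S, Finset.mem_filter, Finset.mem_univ, true_and] at ha ⊢
    obtain ⟨k, rfl⟩ := Subgroup.mem_zpowers_iff.mp ha
    rw [← zpow_natCast, ← zpow_mul, mul_comm, zpow_mul, zpow_natCast, ← h0, pow_orderOf_eq_one,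
      one_zpow]
  have hT : T.card = r := by
    have : T.card = Nat.card (Subgroup.zpowers c₀) := by
      rw [Nat.card_eq_fintype_card, Fintype.card_subtype]
    rw [this, Nat.card_zpowers, h0]
  have hEq : T = S := Finset.eq_of_subset_of_card_le hTS (by rw [hT]; exact h1)
  have : c ∈ S := by simp [S, hc]
  rw [← hEq] at this
  simpa [T] using this

/-- if abelian subgroups are cyclic, commuting elements `c`, `x` with `c ^ orderOf x = 1` satisfy
`c ∈ zpowers x` -/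
theorem mem_zpowers_of_commute {H : Type*} [Group H] [Finite H]
    (hcyc : ∀ A : Subgroup H, (∀ a ∈ A, ∀ b ∈ A, a * b = b * a) → IsCyclic A)
    {c x : H} (hcx : c * x = x * c) (hc : c ^ orderOf x = 1) : c ∈ zpowers x := by
  have hA := hcyc (closure {c, x}) (comm_closure _ (by
    intro a ha b hb
    simp only [Set.mem_insert_iff, Set.mem_singleton_iff] at ha hb
    rcases ha with rfl | rfl <;> rcases hb with rfl | rfl <;> simp [hcx]))
  have hcm : c ∈ closure {c, x} := subset_closure (by simp)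
  have hxm : x ∈ closure {c, x} := subset_closure (by simp)
  have := mem_zpowers_of_cyclic (Z := closure {c, x}) (orderOf_pos x) (c₀ := ⟨x, hxm⟩)
    (c := ⟨c, hcm⟩) (by rw [← Subgroup.orderOf_coe]) (by ext; simpa using hc)
  obtain ⟨k, hk⟩ := Subgroup.mem_zpowers_iff.mp this
  exact Subgroup.mem_zpowers_iff.mpr ⟨k, by simpa using congrArg Subtype.val hk⟩

section ring
variable {R : Type*} [Ring R]

theorem ring_conj {I1 I2 : R} (s2 : I2 * I2 = -1) (a : I1 * I2 + I2 * I1 = -1) :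
    (-I2) * I1 * I2 = I2 - I1 := by
  have h : (-I2) * I1 * I2 - (I2 - I1) = -I2 * (I1 * I2 + I2 * I1) - I2 + (I2 * I2) * I1 + I1 := by
    noncomm_ring
  rw [a, s2] at h
  have h2 : -I2 * (-1 : R) - I2 + (-1) * I1 + I1 = 0 := by noncomm_ring
  rw [h2] at h
  exact sub_eq_zero.mp h

theorem ring_sum {I1 I2 I3 : R} (s1 : I1 * I1 = -1) (a12 : I1 * I2 + I2 * I1 = -1)
    (a13 : I1 * I3 + I3 * I1 = -1) (a23 : I2 * I3 + I3 * I2 = -1) :
    (I2 - I1) * (I3 - I1) + (I1 - I3) * (I1 - I2) = -1 := by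
  have h : (I2 - I1) * (I3 - I1) + (I1 - I3) * (I1 - I2)
      = (I2 * I3 + I3 * I2) - (I1 * I2 + I2 * I1) - (I1 * I3 + I3 * I1) + 2 * (I1 * I1) := by
    noncomm_ring
  rw [h, a12, a13, a23, s1]
  noncomm_ring

theorem ring_comm {D2 D3 X : R} (h2 : D2 * X + X * D2 + D2 = 0) (h3 : D3 * X + X * D3 + D3 = 0) :
    D2 * D3 * X = X * (D2 * D3) := by
  have h : D2 * D3 * X - X * (D2 * D3)
      = D2 * (D3 * X + X * D3 + D3) - (D2 * X + X * D2 + D2) * D3 := by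
    noncomm_ring
  rw [h2, h3] at h
  simp only [mul_zero, zero_mul, sub_zero] at h
  exact sub_eq_zero.mp h

theorem ring_last {I1 I3 : R} (s1 : I1 * I1 = -1) (a13 : I1 * I3 + I3 * I1 = -1) :
    (-I1) * (I3 - I1) * (-I1) = I3 := by
  have h : (-I1) * (I3 - I1) * (-I1) - I3
      = (I1 * I3 + I3 * I1) * I1 - I3 * (I1 * I1) - (I1 * I1) * I1 - I3 := by
    noncomm_ring
  rw [a13, s1] at h
  have h2 : (-1 : R) * I1 - I3 * (-1) - (-1) * I1 - I3 = 0 := by noncomm_ring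
  rw [h2] at h
  exact sub_eq_zero.mp h

end ring

section rel
variable {E : Type*} [Field E] {H : Type*} [Group H] [Finite H] {V : Type*} [AddCommGroup V]
  [Module E V] {ρ : Representation E H V}

/-- `I X + X I + I = 1` for `i ∈ Iset x` -/
theorem rel_IX (hρ : Fpf ρ) {x i : H} (hx : orderOf x = 3) (hi : i ∈ Iset x) :
    ρ i * ρ x + ρ x * ρ i + ρ i = 1 := by
  obtain ⟨s1, n1⟩ := ops_four hρ hi.1
  have hX := ops_three hρ hx
  have nX : ρ x⁻¹ = -1 - ρ x := by rw [← hX]; abel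
  have x1 := ops_six hρ hi.2
  rw [mul_inv_rev, map_mul, map_mul, n1, nX] at x1
  rw [← x1]
  noncomm_ring

/-- `I I' + I' I = -1` if `i i'` has order `3` -/
theorem rel_II (hρ : Fpf ρ) {i i' : H} (hi : orderOf i = 4) (hi' : orderOf i' = 4)
    (h : orderOf (i * i') = 3) : ρ i * ρ i' + ρ i' * ρ i = -1 := by
  obtain ⟨s1, n1⟩ := ops_four hρ hi
  obtain ⟨s2, n2⟩ := ops_four hρ hi'
  have x1 := ops_three hρ h
  rw [mul_inv_rev, map_mul, map_mul, n1, n2] at x1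
  rw [← x1]
  noncomm_ring

end rel

section lin2
variable {p : ℕ} [Fact p.Prime] {H : Type*} [Group H] [Finite H] {V : Type*}
  [AddCommGroup V] [Module (KK p) V] [FiniteDimensional (KK p) V] [Nontrivial V]
  {ρ : Representation (KK p) H V}

/-! ## SCA -/
theorem scenarioA (hρ : Fpf ρ) {x i₁ i₂ i₃ : H} (hx : orderOf x = 3)
    (h₁ : i₁ ∈ Iset x) (h₂ : i₂ ∈ Iset x) (h₃ : i₃ ∈ Iset x) (h₁₂ : orderOf (i₁ * i₂) = 3)
    (h₁₃ : orderOf (i₁ * i₃) = 3) (h₂₃ : orderOf (i₂ * i₃) = 3) :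
    i₃ ∈ closure {i₁, i₂, x} := by
  obtain ⟨s1, n1⟩ := ops_four hρ h₁.1
  obtain ⟨s2, n2⟩ := ops_four hρ h₂.1
  obtain ⟨s3, n3⟩ := ops_four hρ h₃.1
  have x1 := rel_IX hρ hx h₁
  have x2 := rel_IX hρ hx h₂
  have x3 := rel_IX hρ hx h₃
  have a12 := rel_II hρ h₁.1 h₂.1 h₁₂
  have a13 := rel_II hρ h₁.1 h₃.1 h₁₃
  have a23 := rel_II hρ h₂.1 h₃.1 h₂₃
  have E12 : ρ (i₂⁻¹ * i₁ * i₂) = ρ i₂ - ρ i₁ := by
    rw [map_mul, map_mul, n2]; exact ring_conj s2 a12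
  have E13 : ρ (i₃⁻¹ * i₁ * i₃) = ρ i₃ - ρ i₁ := by
    rw [map_mul, map_mul, n3]; exact ring_conj s3 a13
  have E12' : ρ (i₂⁻¹ * i₁ * i₂)⁻¹ = ρ i₁ - ρ i₂ := by
    have : (i₂⁻¹ * i₁ * i₂)⁻¹ = i₂⁻¹ * i₁⁻¹ * i₂ := by group
    rw [this, map_mul, map_mul, n2, n1]
    have := ring_conj s2 a12
    have h : -ρ i₂ * -ρ i₁ * ρ i₂ = - (-ρ i₂ * ρ i₁ * ρ i₂) := by noncomm_ring
    rw [h, this]; abel
  have E13' : ρ (i₃⁻¹ * i₁ * i₃)⁻¹ = ρ i₁ - ρ i₃ := by
    have : (i₃⁻¹ * i₁ * i₃)⁻¹ = i₃⁻¹ * i₁⁻¹ * i₃ := by group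
    rw [this, map_mul, map_mul, n3, n1]
    have := ring_conj s3 a13
    have h : -ρ i₃ * -ρ i₁ * ρ i₃ = - (-ρ i₃ * ρ i₁ * ρ i₃) := by noncomm_ring
    rw [h, this]; abel
  set e12 := i₂⁻¹ * i₁ * i₂ with he12
  set e13 := i₃⁻¹ * i₁ * i₃ with he13
  clear_value e12 e13
  have d2 : (ρ i₂ - ρ i₁) * ρ x + ρ x * (ρ i₂ - ρ i₁) + (ρ i₂ - ρ i₁) = 0 := by
    have : (ρ i₂ - ρ i₁) * ρ x + ρ x * (ρ i₂ - ρ i₁) + (ρ i₂ - ρ i₁)
        = (ρ i₂ * ρ x + ρ x * ρ i₂ + ρ i₂) - (ρ i₁ * ρ x + ρ x * ρ i₁ + ρ i₁) := by noncomm_ring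
    rw [this, x1, x2, sub_self]
  have d3 : (ρ i₃ - ρ i₁) * ρ x + ρ x * (ρ i₃ - ρ i₁) + (ρ i₃ - ρ i₁) = 0 := by
    have : (ρ i₃ - ρ i₁) * ρ x + ρ x * (ρ i₃ - ρ i₁) + (ρ i₃ - ρ i₁)
        = (ρ i₃ * ρ x + ρ x * ρ i₃ + ρ i₃) - (ρ i₁ * ρ x + ρ x * ρ i₁ + ρ i₁) := by noncomm_ring
    rw [this, x1, x3, sub_self]
  have hcx : (e12 * e13) * x = x * (e12 * e13) := by
    apply ops_inj hρ
    rw [map_mul, map_mul, map_mul, map_mul, E12, E13]
    exact ring_comm d2 d3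
  have h3 : (3 : KK p) ≠ 0 := by
    have := ops_char hρ (g := x) Nat.prime_three (by rw [hx])
    exact_mod_cast this
  have hc3 : orderOf (e12 * e13) = 3 := by
    apply ops_order_three hρ h3
    rw [mul_inv_rev, map_mul, map_mul, E12, E13, E12', E13']
    exact ring_sum s1 a12 a13 a23
  have hcz : e12 * e13 ∈ zpowers x := by
    apply mem_zpowers_of_commute (fun A hA => zg_cyc hρ A hA) hcx
    rw [hx, ← hc3, pow_orderOf_eq_one]
  have m1 : i₁ ∈ closure {i₁, i₂, x} := subset_closure (by simp)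
  have m2 : i₂ ∈ closure {i₁, i₂, x} := subset_closure (by simp)
  have mx : x ∈ closure {i₁, i₂, x} := subset_closure (by simp)
  have mc : e12 * e13 ∈ closure {i₁, i₂, x} := (zpowers_le.mpr mx) hcz
  have me12 : e12 ∈ closure {i₁, i₂, x} := by
    rw [he12]; exact mul_mem (mul_mem (inv_mem m2) m1) m2
  have me13 : e13 ∈ closure {i₁, i₂, x} := by
    have : e13 = e12⁻¹ * (e12 * e13) := by group
    rw [this]
    exact mul_mem (inv_mem me12) mc
  have hfin : i₃ = i₁⁻¹ * e13 * i₁⁻¹ := by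
    apply ops_inj hρ
    rw [map_mul, map_mul, E13, n1]
    exact (ring_last s1 a13).symm
  rw [hfin]
  exact mul_mem (mul_mem (inv_mem m1) me13) (inv_mem m1)

end lin2

end Cfsg.Agent.Lib.Helper76ZaSCA
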