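import Mathlib
import Cfsg.Agent.Lib.Helper71ZaDefs
import Cfsg.Agent.Lib.Helper76ZaSCA

set_option autoImplicit false

namespace Cfsg.Agent.Lib.Helper76ZaORD

open Cfsg.Agent.Lib.Helper71ZaDefs Subgroup Cfsg.Agent.Lib.Helper76ZaSCA

set_option maxRecDepth 1000000 in
theorem a4_ord : ∀ g : Equiv.Perm (Fin 4), Equiv.Perm.sign g = 1 → g ^ 2 = 1 ∨ g ^ 3 = 1 := by
  decide

set_option maxRecDepth 1000000 in
theorem a5_ord : ∀ g : Equiv.Perm (Fin 5), Equiv.Perm.sign g = 1 →
    g ^ 2 = 1 ∨ g ^ 3 = 1 ∨ g ^ 5 = 1 := by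
  decide

theorem fin_of_pow {G : Type*} [Group G] (d : G) (h : d ^ 4 = 1 ∨ d ^ 6 = 1 ∨ d ^ 10 = 1) :
    orderOf d = 1 ∨ orderOf d = 2 ∨ orderOf d = 3 ∨ orderOf d = 4 ∨
      orderOf d = 5 ∨ orderOf d = 6 ∨ orderOf d = 10 := by
  rcases h with h | h | h
  · have h1 := orderOf_dvd_of_pow_eq_one h
    have h2 := Nat.le_of_dvd (by norm_num) h1
    interval_cases orderOf d <;> omega
  · have h1 := orderOf_dvd_of_pow_eq_one h
    have h2 := Nat.le_of_dvd (by norm_num) h1
    interval_cases orderOf d <;> omega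
  · have h1 := orderOf_dvd_of_pow_eq_one h
    have h2 := Nat.le_of_dvd (by norm_num) h1
    interval_cases orderOf d <;> omega

theorem pow_of_ker {D A : Type*} [Group D] [Group A] (f : D →* A) (hk : Nat.card f.ker = 2)
    (d : D) (k : ℕ) (h : f d ^ k = 1) : d ^ (k * 2) = 1 := by
  have hm : d ^ k ∈ f.ker := by rw [MonoidHom.mem_ker, map_pow, h]
  have := pow_card_eq_one' (G := f.ker) (x := ⟨d ^ k, hm⟩)
  rw [hk] at this
  rw [pow_mul]
  exact congrArg Subtype.val this

theorem invol_central {H : Type*} [Group H]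
    (hinv : ∀ a b : H, orderOf a = 2 → orderOf b = 2 → a = b) {z : H} (hz : orderOf z = 2)
    (g : H) : Commute z g := by
  have h1 : orderOf (g * z * g⁻¹) = 2 := by
    have := orderOf_injective (MulAut.conj g).toMonoidHom (MulAut.conj g).injective z
    rw [← hz, ← this]
    rfl
  have h2 := hinv _ _ h1 hz
  have : g * z = z * g := mul_inv_eq_iff_eq_mul.mp h2
  exact this.symm

/-! ## ORD : element orders -/
theorem orders_of_small {H : Type*} [Group H] [Finite H]
    (hinv : ∀ a b : H, orderOf a = 2 → orderOf b = 2 → a = b)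
    (hcyc : ∀ A : Subgroup H, (∀ a ∈ A, ∀ b ∈ A, a * b = b * a) → IsCyclic A)
    (a b : H) (ha : orderOf a = 6) (hb : orderOf b = 6) (hs : Bin (closure {a, b})) :
    ∀ d ∈ closure {a, b}, orderOf d = 1 ∨ orderOf d = 2 ∨ orderOf d = 3 ∨ orderOf d = 4 ∨
      orderOf d = 5 ∨ orderOf d = 6 ∨ orderOf d = 10 := by
  have ma : a ∈ closure {a, b} := subset_closure (by simp)
  have mb : b ∈ closure {a, b} := subset_closure (by simp)
  have ha3 : orderOf (a ^ 3) = 2 := by
    rw [orderOf_pow' _ (by norm_num), ha]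
    norm_num
  have hb3 : orderOf (b ^ 3) = 2 := by
    rw [orderOf_pow' _ (by norm_num), hb]
    norm_num
  have hab3 : b ^ 3 = a ^ 3 := hinv _ _ hb3 ha3
  intro d hd
  rcases hs with ⟨A, hAi, hA⟩ | ⟨f, hf, hk⟩ | ⟨f, hf, hk⟩ | ⟨f, hf, hk⟩
  · have hsq : ∀ g : closure {a, b}, g ^ 2 ∈ A := by
      intro g
      rcases hAi with h | h
      · rw [index_eq_one.mp h]; exact mem_top _
      · exact sq_mem_of_index_two h g
    have hc2 : Commute (a ^ 2) (b ^ 2) :=
      congrArg Subtype.val (hA _ (hsq ⟨a, ma⟩) _ (hsq ⟨b, mb⟩))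
    have ea : a = a ^ 3 * (a ^ 2)⁻¹ := by group
    have eb : b = a ^ 3 * (b ^ 2)⁻¹ := by rw [← hab3]; group
    have hz := invol_central hinv ha3
    have hcomm : Commute a b := by
      rw [ea, eb]
      exact Commute.mul_left (Commute.mul_right (Commute.refl _) (hz _))
        (Commute.mul_right (hz _).symm (hc2.inv_inv))
    have hbz : b ∈ zpowers a := by
      apply mem_zpowers_of_commute hcyc hcomm.symm
      rw [ha, ← hb, pow_orderOf_eq_one]
    have hle : closure {a, b} ≤ zpowers a := by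
      rw [closure_le]
      intro g hg
      simp only [Set.mem_insert_iff, Set.mem_singleton_iff] at hg
      rcases hg with rfl | rfl
      · exact mem_zpowers _
      · exact hbz
    obtain ⟨k, rfl⟩ := mem_zpowers_iff.mp (hle hd)
    apply fin_of_pow
    right; left
    rw [← zpow_natCast, ← zpow_mul, mul_comm, zpow_mul, zpow_natCast, ← ha, pow_orderOf_eq_one,
      one_zpow]
  · have h1 := a4_ord (f ⟨d, hd⟩).1 (Equiv.Perm.mem_alternatingGroup.mp (f ⟨d, hd⟩).2)
    apply fin_of_pow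
    rcases h1 with h1 | h1
    · left
      have := pow_of_ker f hk ⟨d, hd⟩ 2 (Subtype.ext h1)
      exact congrArg Subtype.val this
    · right; left
      have := pow_of_ker f hk ⟨d, hd⟩ 3 (Subtype.ext h1)
      exact congrArg Subtype.val this
  · exfalso
    have : Fact (Nat.Prime 2) := ⟨Nat.prime_two⟩
    obtain ⟨t, ht⟩ := exists_prime_orderOf_dvd_card' (G := f.ker) 2 (by rw [hk])
    have ht2 : orderOf (t.1.1 : H) = 2 := by
      rw [Subgroup.orderOf_coe, Subgroup.orderOf_coe, ht]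
    have hta : (t.1.1 : H) = a ^ 3 := hinv _ _ ht2 ha3
    have hfa : f (⟨a, ma⟩ ^ 3) = 1 := by
      have : (⟨a, ma⟩ : closure {a, b}) ^ 3 = t.1 := Subtype.ext hta.symm
      rw [this]; exact t.2
    have hfb : f (⟨b, mb⟩ ^ 3) = 1 := by
      have : (⟨b, mb⟩ : closure {a, b}) ^ 3 = t.1 := Subtype.ext (by
        rw [hta, ← hab3]; rfl)
      rw [this]; exact t.2
    have hu : ∀ u : ℤˣ, u ^ 3 = 1 → u = 1 := by decide
    have hker : (⊤ : Subgroup (closure {a, b})) ≤ (Equiv.Perm.sign.comp f).ker := by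
      rw [← closure_closure_coe_preimage, closure_le]
      intro g hg
      have hg' : g.1 = a ∨ g.1 = b := by simpa using hg
      rw [SetLike.mem_coe, MonoidHom.mem_ker, MonoidHom.comp_apply]
      apply hu
      rw [← map_pow, ← map_pow]
      rcases hg' with h | h
      · have : g = ⟨a, ma⟩ := Subtype.ext h
        rw [this, hfa, map_one]
      · have : g = ⟨b, mb⟩ := Subtype.ext h
        rw [this, hfb, map_one]
    obtain ⟨g, hg⟩ := hf (Equiv.swap 0 1)
    have := hker (mem_top g)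
    rw [MonoidHom.mem_ker, MonoidHom.comp_apply, hg] at this
    revert this
    decide
  · have h1 := a5_ord (f ⟨d, hd⟩).1 (Equiv.Perm.mem_alternatingGroup.mp (f ⟨d, hd⟩).2)
    apply fin_of_pow
    rcases h1 with h1 | h1 | h1
    · left
      have := pow_of_ker f hk ⟨d, hd⟩ 2 (Subtype.ext h1)
      exact congrArg Subtype.val this
    · right; left
      have := pow_of_ker f hk ⟨d, hd⟩ 3 (Subtype.ext h1)
      exact congrArg Subtype.val this
    · right; right
      have := pow_of_ker f hk ⟨d, hd⟩ 5 (Subtype.ext h1)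
      exact congrArg Subtype.val this

end Cfsg.Agent.Lib.Helper76ZaORD
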