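import Mathlib
import Cfsg.Agent.Lib.Helper71ZaDefs
import Cfsg.Agent.Lib.Helper76ZaOPS
import Cfsg.Agent.Lib.Helper76ZaZ12
import Cfsg.Agent.Lib.Helper76ZaSCA

set_option autoImplicit false
set_option linter.unusedSectionVars false

namespace Cfsg.Agent.Lib.Helper76ZaPL

open Cfsg.Agent.Lib.Helper71ZaDefs Subgroup Cfsg.Agent.Lib.Helper76ZaOPS
  Cfsg.Agent.Lib.Helper76ZaZ12 Cfsg.Agent.Lib.Helper76ZaSCA

/-- the combined statement of the pieces PLANE and DICKSON for the group `D` -/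
def PD (E : Type*) [Field E] (D : Type*) [Group D] (V : Type*) [AddCommGroup V] [Module E V] :
    Prop :=
  ∀ (ρ : Representation E D V) (_ : Fpf ρ) (w₁ w₂ : V)
    (_ : LinearIndependent E ![w₁, w₂])
    (_ : ∀ d : D, ρ d w₁ ∈ Submodule.span E {w₁, w₂} ∧ ρ d w₂ ∈ Submodule.span E {w₁, w₂})
    (S : Set D) (_ : closure S = ⊤)
    (_ : ∀ s ∈ S, (∃ α : E, ρ s + ρ s⁻¹ = α • 1) ∧ ∃ d : D, s * d ≠ d * s), Bin D

section
variable {E : Type*} [Field E] {H : Type*} [Group H] [Finite H] {V : Type*} [AddCommGroup V]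
  [Module E V] {ρ : Representation E H V}

theorem invariant_closure (U : Submodule E V) (S : Set H) (hS : ∀ s ∈ S, ∀ u ∈ U, ρ s u ∈ U) :
    ∀ d ∈ closure S, ∀ u ∈ U, ρ d u ∈ U := by
  intro d hd
  induction hd using closure_induction with
  | mem s hs => exact hS s hs
  | one => intro u hu; simpa using hu
  | mul a b _ _ iha ihb => intro u hu; rw [map_mul]; exact iha _ (ihb u hu)
  | inv a _ iha =>
    intro u hu
    have hpow : ∀ k : ℕ, ∀ u ∈ U, ρ (a ^ k) u ∈ U := by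
      intro k
      induction k with
      | zero => intro u hu; simpa using hu
      | succ k ih => intro u hu; rw [pow_succ, map_mul]; exact ih _ (iha u hu)
    have : a⁻¹ = a ^ (orderOf a - 1) := by
      rw [inv_eq_iff_mul_eq_one, ← pow_succ', Nat.sub_add_cancel (orderOf_pos a),
        pow_orderOf_eq_one]
    rw [this]; exact hpow _ u hu

theorem comm_of_line (hρ : Fpf ρ) (D : Subgroup H) (w : V) (hw : w ≠ 0)
    (h : ∀ d ∈ D, ∃ c : E, ρ d w = c • w) : ∀ a ∈ D, ∀ b ∈ D, a * b = b * a := by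
  intro a ha b hb
  obtain ⟨ca, hca⟩ := h a ha
  obtain ⟨cb, hcb⟩ := h b hb
  have h1 : ρ (a * b) w = ρ (b * a) w := by
    rw [map_mul, map_mul, Module.End.mul_apply, Module.End.mul_apply, hca, hcb, map_smul,
      map_smul, hca, hcb, smul_smul, smul_smul, mul_comm]
  by_contra hne
  apply hw
  apply hρ ((b * a)⁻¹ * (a * b)) (by
    intro h
    apply hne
    exact (inv_mul_eq_one.mp h).symm) w
  rw [map_mul, Module.End.mul_apply, h1, ← Module.End.mul_apply, ← map_mul, inv_mul_cancel,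
    map_one]
  rfl

theorem bin_of_comm (D : Subgroup H) (h : ∀ a ∈ D, ∀ b ∈ D, a * b = b * a) : Bin D :=
  Or.inl ⟨⊤, Or.inl index_top, fun a _ b _ => Subtype.ext (h a a.2 b b.2)⟩

theorem plane_bin (S : Set H) (hPD : PD E (closure S) V) (hρ : Fpf ρ) (w₁ w₂ : V) (hw : w₁ ≠ 0)
    (hinv : ∀ s ∈ S, ρ s w₁ ∈ Submodule.span E {w₁, w₂} ∧ ρ s w₂ ∈ Submodule.span E {w₁, w₂})
    (hsc : ∀ s ∈ S, ∃ α : E, ρ s + ρ s⁻¹ = α • 1)
    (hnc : ∀ s ∈ S, ∃ t ∈ S, s * t ≠ t * s) : Bin (closure S) := by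
  have hU : ∀ s ∈ S, ∀ u ∈ Submodule.span E {w₁, w₂}, ρ s u ∈ Submodule.span E {w₁, w₂} := by
    intro s hs
    have : Submodule.span E {w₁, w₂} ≤ (Submodule.span E {w₁, w₂}).comap (ρ s) := by
      rw [Submodule.span_le]
      intro v hv
      simp only [Set.mem_insert_iff, Set.mem_singleton_iff] at hv
      rcases hv with rfl | rfl
      · exact (hinv s hs).1
      · exact (hinv s hs).2
    exact fun u hu => this hu
  have hD := invariant_closure _ S hU
  have m1 : w₁ ∈ Submodule.span E {w₁, w₂} := Submodule.subset_span (by simp)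
  have m2 : w₂ ∈ Submodule.span E {w₁, w₂} := Submodule.subset_span (by simp)
  by_cases hli : LinearIndependent E ![w₁, w₂]
  · refine hPD (ρ.comp (closure S).subtype) ?_ w₁ w₂ hli ?_ (((↑) : closure S → H) ⁻¹' S)
      (closure_closure_coe_preimage) ?_
    · intro h hh v hv
      exact hρ h.1 (fun h1 => hh (Subtype.ext h1)) v hv
    · intro d
      exact ⟨hD d.1 d.2 _ m1, hD d.1 d.2 _ m2⟩
    · intro s hs
      refine ⟨hsc s.1 hs, ?_⟩
      obtain ⟨t, ht, hst⟩ := hnc s.1 hs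
      exact ⟨⟨t, subset_closure ht⟩, fun h => hst (congrArg Subtype.val h)⟩
  · rw [LinearIndependent.pair_iff' hw] at hli
    push Not at hli
    obtain ⟨a, rfl⟩ := hli
    apply bin_of_comm
    apply comm_of_line hρ _ w₁ hw
    intro d hd
    obtain ⟨c₁, c₂, hc⟩ := Submodule.mem_span_pair.mp (hD d hd _ m1)
    exact ⟨c₁ + c₂ * a, by rw [← hc, add_smul, mul_smul]⟩

end

section lin
variable {E : Type*} [Field E] [IsAlgClosed E] {H : Type*} [Group H] [Finite H] {V : Type*}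
  [AddCommGroup V] [Module E V] [FiniteDimensional E V] [Nontrivial V]
  {ρ : Representation E H V}

/-! ## TWO : two generators with scalar `g + g⁻¹` -/
theorem small_two_of (hρ : Fpf ρ) (a b : H) (hPD : PD E (closure {a, b}) V) (α β : E)
    (ha : ρ a + ρ a⁻¹ = α • 1) (hb : ρ b + ρ b⁻¹ = β • 1) : Bin (closure {a, b}) := by
  by_cases hab : a * b = b * a
  · apply bin_of_comm
    apply comm_closure
    intro c hc d hd
    simp only [Set.mem_insert_iff, Set.mem_singleton_iff] at hc hd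
    rcases hc with rfl | rfl <;> rcases hd with rfl | rfl <;> simp [hab]
  obtain ⟨μ, hμ⟩ := Module.End.exists_eigenvalue (ρ (a * b))
  obtain ⟨w, hw⟩ := hμ.exists_hasEigenvector
  have hw0 : w ≠ 0 := hw.2
  have hw1 : ρ a (ρ b w) = μ • w := by
    have := hw.apply_eq_smul
    rwa [map_mul] at this
  have cancel : ∀ (g : H) (v : V), ρ g⁻¹ (ρ g v) = v := by
    intro g v
    rw [← Module.End.mul_apply, (ops_inv g).2]; rfl
  have hμ0 : μ ≠ 0 := by
    rintro rfl
    rw [zero_smul] at hw1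
    apply hw0
    have := cancel b w
    rw [← this, ← cancel a (ρ b w), hw1, map_zero, map_zero]
  have e1 : ∀ v, ρ a⁻¹ v = α • v - ρ a v := by
    intro v
    have := LinearMap.congr_fun ha v
    simp only [LinearMap.add_apply, LinearMap.smul_apply, Module.End.one_apply] at this
    rw [← this]; abel
  have e2 : ∀ v, ρ b v = β • v - ρ b⁻¹ v := by
    intro v
    have := LinearMap.congr_fun hb v
    simp only [LinearMap.add_apply, LinearMap.smul_apply, Module.End.one_apply] at this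
    rw [← this]; abel
  have e4 : ρ b w = μ • ρ a⁻¹ w := by
    rw [← map_smul, ← hw1, cancel]
  have e3 : ρ b⁻¹ (ρ a⁻¹ w) = μ⁻¹ • w := by
    have : w = μ⁻¹ • (ρ a (ρ b w)) := by rw [hw1, smul_smul, inv_mul_cancel₀ hμ0, one_smul]
    conv_lhs => rw [this]
    rw [map_smul, map_smul, cancel, cancel]
  have e5 : ρ a (ρ a w) = α • ρ a w - w := by
    have := e1 (ρ a w)
    rw [cancel] at this
    generalize ρ a (ρ a w) = y at this ⊢
    generalize α • ρ a w = u at this ⊢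
    rw [this]; abel
  have e6 : ρ b (ρ a w) = α • ρ b w - (β • ρ a⁻¹ w - μ⁻¹ • w) := by
    have : ρ a w = α • w - ρ a⁻¹ w := by rw [e1 w]; abel
    rw [this, map_sub, map_smul, e2 (ρ a⁻¹ w), e3]
  apply plane_bin {a, b} hPD hρ w (ρ a w) hw0
  · set U := Submodule.span E {w, ρ a w} with hU
    have m1 : w ∈ U := Submodule.subset_span (by simp)
    have m2 : ρ a w ∈ U := Submodule.subset_span (by simp)
    have m3 : ρ a⁻¹ w ∈ U := by
      rw [e1]; exact U.sub_mem (U.smul_mem _ m1) m2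
    have m4 : ρ b w ∈ U := by
      rw [e4]; exact U.smul_mem _ m3
    intro s hs
    simp only [Set.mem_insert_iff, Set.mem_singleton_iff] at hs
    rcases hs with rfl | rfl
    · refine ⟨m2, ?_⟩
      rw [e5]; exact U.sub_mem (U.smul_mem _ m2) m1
    · refine ⟨m4, ?_⟩
      rw [e6]
      exact U.sub_mem (U.smul_mem _ m4) (U.sub_mem (U.smul_mem _ m3) (U.smul_mem _ m1))
  · intro s hs
    simp only [Set.mem_insert_iff, Set.mem_singleton_iff] at hs
    rcases hs with rfl | rfl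
    · exact ⟨α, ha⟩
    · exact ⟨β, hb⟩
  · intro s hs
    simp only [Set.mem_insert_iff, Set.mem_singleton_iff] at hs
    rcases hs with rfl | rfl
    · exact ⟨b, by simp, hab⟩
    · exact ⟨a, by simp, fun h => hab h.symm⟩

/-! ## THREE : the icosahedral configuration -/
theorem ring_anti {R : Type*} [Ring R] {I1 I2 X : R} (s1 : I1 * I1 = -1)
    (a12 : I1 * I2 + I2 * I1 = -1) (x1 : I1 * X + X * I1 + I1 = 1) :
    I1 * (6 * X + 3 + 2 * I1 + 2 * I2) + (6 * X + 3 + 2 * I1 + 2 * I2) * I1 = 0 := by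
  have h : I1 * (6 * X + 3 + 2 * I1 + 2 * I2) + (6 * X + 3 + 2 * I1 + 2 * I2) * I1
     = 6 * (I1 * X + X * I1 + I1) + 4 * (I1 * I1) + 2 * (I1 * I2 + I2 * I1) := by noncomm_ring
  rw [h, s1, a12, x1]; noncomm_ring

theorem ring_anti' {R : Type*} [Ring R] {I1 I2 X : R} (s2 : I2 * I2 = -1)
    (a12 : I1 * I2 + I2 * I1 = -1) (x2 : I2 * X + X * I2 + I2 = 1) :
    I2 * (6 * X + 3 + 2 * I1 + 2 * I2) + (6 * X + 3 + 2 * I1 + 2 * I2) * I2 = 0 := by
  have h : I2 * (6 * X + 3 + 2 * I1 + 2 * I2) + (6 * X + 3 + 2 * I1 + 2 * I2) * I2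
     = 6 * (I2 * X + X * I2 + I2) + 4 * (I2 * I2) + 2 * (I1 * I2 + I2 * I1) := by noncomm_ring
  rw [h, s2, a12, x2]; noncomm_ring

theorem ring_comm2 {R : Type*} [Ring R] {I1 I2 T : R} (t1 : I1 * T + T * I1 = 0)
    (t2 : I2 * T + T * I2 = 0) : (I1 * I2) * T = T * (I1 * I2) := by
  have h : (I1 * I2) * T - T * (I1 * I2) = I1 * (I2 * T + T * I2) - (I1 * T + T * I1) * I2 := by
    noncomm_ring
  rw [t1, t2] at h
  simp only [mul_zero, zero_mul, sub_zero] at h
  exact sub_eq_zero.mp h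

theorem not_comm_of_Iset {x i : H} (hx : orderOf x = 3) (hi : i ∈ Iset x) : i * x ≠ x * i := by
  intro h
  have h1 : Commute i x := h
  have := h1.orderOf_mul_eq_mul_orderOf_of_coprime (by rw [hi.1, hx]; norm_num)
  rw [hi.1, hx, hi.2] at this
  norm_num at this

theorem small_three_adj_of (h2 : (2 : E) ≠ 0) (hρ : Fpf ρ) {x i₁ i₂ : H}
    (hPD : PD E (closure {i₁, i₂, x}) V) (hx : orderOf x = 3)
    (h₁ : i₁ ∈ Iset x) (h₂ : i₂ ∈ Iset x) (h₁₂ : orderOf (i₁ * i₂) = 3) :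
    Bin (closure {i₁, i₂, x}) := by
  obtain ⟨s1, n1⟩ := ops_four hρ h₁.1
  obtain ⟨s2, n2⟩ := ops_four hρ h₂.1
  have x1 := rel_IX hρ hx h₁
  have x2 := rel_IX hρ hx h₂
  have a12 := rel_II hρ h₁.1 h₂.1 h₁₂
  have h3 : (3 : E) ≠ 0 := by
    exact_mod_cast ops_char hρ (g := x) Nat.prime_three (by rw [hx])
  have h6 : (6 : E) ≠ 0 := by
    have : (6 : E) = 2 * 3 := by norm_num
    rw [this]; exact mul_ne_zero h2 h3
  obtain ⟨T, hT⟩ : ∃ T : Module.End E V, T = 6 * ρ x + 3 + 2 * ρ i₁ + 2 * ρ i₂ := ⟨_, rfl⟩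
  have t1 : ρ i₁ * T + T * ρ i₁ = 0 := by rw [hT]; exact ring_anti s1 a12 x1
  have t2 : ρ i₂ * T + T * ρ i₂ = 0 := by rw [hT]; exact ring_anti' s2 a12 x2
  have hcomm : (ρ i₁ * ρ i₂) * T = T * (ρ i₁ * ρ i₂) := ring_comm2 t1 t2
  obtain ⟨w, μ, ν, hw0, hU, hTw⟩ := exists_common_eigenvector _ _ hcomm
  have hU' : ρ i₁ (ρ i₂ w) = μ • w := hU
  have v1 : ρ i₁ (ρ i₁ w) = -w := by
    have := LinearMap.congr_fun s1 w
    simpa using this
  have v2 : ρ i₂ w = -(μ • ρ i₁ w) := by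
    have := LinearMap.congr_fun s1 (ρ i₂ w)
    simp only [Module.End.mul_apply, LinearMap.neg_apply, Module.End.one_apply] at this
    rw [hU', map_smul] at this
    rw [this, neg_neg]
  have v3 : ρ i₂ (ρ i₁ w) = -w - μ • w := by
    have := LinearMap.congr_fun a12 w
    simp only [LinearMap.add_apply, Module.End.mul_apply, LinearMap.neg_apply,
      Module.End.one_apply] at this
    rw [hU'] at this
    rw [← this]; abel
  have v4 : T (ρ i₁ w) = -(ν • ρ i₁ w) := by
    have := LinearMap.congr_fun t1 w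
    simp only [LinearMap.add_apply, Module.End.mul_apply, LinearMap.zero_apply] at this
    rw [hTw, map_smul] at this
    exact eq_neg_of_add_eq_zero_right this
  have vX : ∀ v, ρ x v = (6 : E)⁻¹ • (T v - (3 : E) • v - (2 : E) • ρ i₁ v - (2 : E) • ρ i₂ v) := by
    intro v
    have : T v = (6 : E) • ρ x v + (3 : E) • v + (2 : E) • ρ i₁ v + (2 : E) • ρ i₂ v := by
      rw [hT]
      simp only [LinearMap.add_apply, Module.End.mul_apply, Module.End.ofNat_apply]
      simp only [ofNat_smul_eq_nsmul E]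
    rw [this]
    have e : (6 : E) • ρ x v + (3 : E) • v + (2 : E) • ρ i₁ v + (2 : E) • ρ i₂ v - (3 : E) • v
        - (2 : E) • ρ i₁ v - (2 : E) • ρ i₂ v = (6 : E) • ρ x v := by abel
    rw [e, smul_smul, inv_mul_cancel₀ h6, one_smul]
  apply plane_bin {i₁, i₂, x} hPD hρ w (ρ i₁ w) hw0
  · set U := Submodule.span E {w, ρ i₁ w} with hUdef
    have m1 : w ∈ U := Submodule.subset_span (by simp)
    have m2 : ρ i₁ w ∈ U := Submodule.subset_span (by simp)
    have m3 : ρ i₁ (ρ i₁ w) ∈ U := by rw [v1]; exact U.neg_mem m1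
    have m4 : ρ i₂ w ∈ U := by rw [v2]; exact U.neg_mem (U.smul_mem _ m2)
    have m5 : ρ i₂ (ρ i₁ w) ∈ U := by rw [v3]; exact U.sub_mem (U.neg_mem m1) (U.smul_mem _ m1)
    intro s hs
    simp only [Set.mem_insert_iff, Set.mem_singleton_iff] at hs
    rcases hs with rfl | rfl | rfl
    · exact ⟨m2, m3⟩
    · exact ⟨m4, m5⟩
    · constructor
      · rw [vX, hTw]
        exact U.smul_mem _ (U.sub_mem (U.sub_mem (U.sub_mem (U.smul_mem _ m1) (U.smul_mem _ m1))
          (U.smul_mem _ m2)) (U.smul_mem _ m4))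
      · rw [vX, v4]
        exact U.smul_mem _ (U.sub_mem (U.sub_mem (U.sub_mem (U.neg_mem (U.smul_mem _ m2))
          (U.smul_mem _ m2)) (U.smul_mem _ m3)) (U.smul_mem _ m5))
  · intro s hs
    simp only [Set.mem_insert_iff, Set.mem_singleton_iff] at hs
    rcases hs with rfl | rfl | rfl
    · exact ⟨0, by rw [n1]; simp⟩
    · exact ⟨0, by rw [n2]; simp⟩
    · exact ⟨-1, by rw [ops_three hρ hx]; simp⟩
  · intro s hs
    simp only [Set.mem_insert_iff, Set.mem_singleton_iff] at hs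
    rcases hs with rfl | rfl | rfl
    · exact ⟨x, by simp, not_comm_of_Iset hx h₁⟩
    · exact ⟨x, by simp, not_comm_of_Iset hx h₂⟩
    · exact ⟨i₁, by simp, fun h => not_comm_of_Iset hx h₁ h.symm⟩

end lin

end Cfsg.Agent.Lib.Helper76ZaPL
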