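import Mathlib
import Cfsg.Agent.Lib.Helper71ZaDefs
import Cfsg.Agent.Lib.Helper76ZaPL
import Cfsg.Agent.Lib.Helper68ZaPLANE
import Cfsg.Agent.Lib.Helper68ZaDICKSON

set_option autoImplicit false
set_option linter.unusedSectionVars false

namespace Cfsg.Agent.Lib.Helper76ZaTWO

open Cfsg.Agent.Lib.Helper71ZaDefs Subgroup Cfsg.Agent.Lib.Helper76ZaPL

theorem pd {p : ℕ} [Fact p.Prime] (hp : p ≠ 2) (D : Type*) [Group D] [Finite D] (V : Type*)
    [AddCommGroup V] [Module (KK p) V] : PD (KK p) D V := by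
  intro ρ hρ w₁ w₂ hli hinv S hS hSs
  obtain ⟨φ, hφ⟩ := Cfsg.Agent.Lib.Helper68ZaPLANE.exists_hom_of_plane ρ hρ w₁ w₂ hli hinv S hS hSs
  exact Cfsg.Agent.Lib.Helper68ZaDICKSON.small_of_planar hp φ hφ

theorem two_ne_zero_KK {p : ℕ} [Fact p.Prime] (hp : p ≠ 2) : (2 : KK p) ≠ 0 := by
  intro h
  have h2 : ((2 : ℕ) : KK p) = 0 := by exact_mod_cast h
  rw [CharP.cast_eq_zero_iff (KK p) p] at h2
  exact hp ((Nat.prime_dvd_prime_iff_eq Fact.out Nat.prime_two).mp h2)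

section lin
variable {p : ℕ} [Fact p.Prime] {H : Type*} [Group H] [Finite H] {V : Type*}
  [AddCommGroup V] [Module (KK p) V] [FiniteDimensional (KK p) V] [Nontrivial V]
  {ρ : Representation (KK p) H V}

/-! ## TWO : two generators with scalar `g + g⁻¹` -/
theorem small_two (hp : p ≠ 2) (hρ : Fpf ρ) (a b : H) (α β : KK p)
    (ha : ρ a + ρ a⁻¹ = α • 1) (hb : ρ b + ρ b⁻¹ = β • 1) : Bin (closure {a, b}) :=
  small_two_of hρ a b (pd hp _ V) α β ha hb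

/-! ## THREE : the icosahedral configuration -/
theorem small_three_adj (hp : p ≠ 2) (hρ : Fpf ρ) {x i₁ i₂ : H} (hx : orderOf x = 3)
    (h₁ : i₁ ∈ Iset x) (h₂ : i₂ ∈ Iset x) (h₁₂ : orderOf (i₁ * i₂) = 3) :
    Bin (closure {i₁, i₂, x}) :=
  small_three_adj_of (two_ne_zero_KK hp) hρ (pd hp _ V) hx h₁ h₂ h₁₂

end lin

end Cfsg.Agent.Lib.Helper76ZaTWO
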