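import Mathlib
import Cfsg.Agent.Lib.Helper71ZaDefs
import Cfsg.Agent.Lib.Helper76ZaTWO
import Cfsg.Agent.Lib.Helper76ZaORD
import Cfsg.Agent.Lib.Helper76ZaOPS
import Cfsg.Agent.Lib.Helper76ZaZ12
import Cfsg.Agent.Lib.Helper71ZaNum
import Cfsg.Agent.Lib.Helper71ZaCalc
import Cfsg.Agent.Lib.Helper71ZaGrp
import Cfsg.Agent.Lib.Helper71ZaBasic

/-!
# Zassenhaus project: the pair lemma
-/

set_option autoImplicit false

namespace Cfsg.Agent.Lib.Helper71ZaPair

open Cfsg.Agent.Lib.Helper71ZaDefs Cfsg.Agent.Lib.Helper76ZaTWO Cfsg.Agent.Lib.Helper76ZaORD Cfsg.Agent.Lib.Helper71ZaNum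
  Cfsg.Agent.Lib.Helper76ZaOPS Cfsg.Agent.Lib.Helper76ZaZ12
  Cfsg.Agent.Lib.Helper71ZaCalc Cfsg.Agent.Lib.Helper71ZaGrp Cfsg.Agent.Lib.Helper71ZaBasic Subgroup

section lin
variable {p : ℕ} [Fact p.Prime] {H : Type*} [Group H] [Finite H] {V : Type*}
  [AddCommGroup V] [Module (KK p) V] [FiniteDimensional (KK p) V] [Nontrivial V]
  {ρ : Representation (KK p) H V}

theorem two_ne_zero' (hp : p ≠ 2) : (2 : KK p) ≠ 0 := by
  intro h
  have h1 : ((2 : ℕ) : KK p) = 0 := by exact_mod_cast h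
  rw [CharP.cast_eq_zero_iff (KK p) p] at h1
  exact hp ((Nat.prime_dvd_prime_iff_eq (Fact.out) Nat.prime_two).mp h1)

theorem orderOf_sq_of_four {i : H} (hi : orderOf i = 4) : orderOf (i * i) = 2 := by
  rw [← pow_two, orderOf_pow_of_dvd (by norm_num) (by rw [hi]; norm_num), hi]

theorem orderOf_cube_of_six {a : H} (ha : orderOf a = 6) : orderOf (a ^ 3) = 2 := by
  rw [orderOf_pow_of_dvd (by norm_num) (by rw [ha]; norm_num), ha]

theorem order_cases (hp : p ≠ 2) (hρ : Fpf ρ) {x i b : H} (hx : orderOf x = 3)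
    (hi : i ∈ Iset x) (hb : b ∈ Iset x) :
    b = i ∨ orderOf (i * b) = 3 ∨ orderOf (i * b) = 4 ∨ orderOf (i * b) = 5 ∨
      orderOf (i * b) = 6 ∨ orderOf (i * b) = 10 := by
  have hs : Bin (closure {i * x, b * x}) :=
    small_two hp hρ (i * x) (b * x) 1 1 (by rw [ops_six hρ hi.2]; simp)
      (by rw [ops_six hρ hb.2]; simp)
  have hbb : b * b = (b * x) ^ 3 :=
    zg_invol hρ _ _ (orderOf_sq_of_four hb.1) (orderOf_cube_of_six hb.2)
  have hmem : i * b ∈ closure {i * x, b * x} := by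
    have h1 : i * x ∈ closure ({i * x, b * x} : Set H) := subset_closure (by simp)
    have h2 : b * x ∈ closure ({i * x, b * x} : Set H) := subset_closure (by simp)
    have h3 : i * b = (i * x) * (b * x)⁻¹ * (b * x) ^ 3 := by
      rw [← hbb]; group
    rw [h3]
    exact mul_mem (mul_mem h1 (inv_mem h2)) (pow_mem h2 3)
  rcases orders_of_small (zg_invol hρ) (zg_cyc hρ) _ _ hi.2 hb.2 hs _ hmem with
    h | h | h | h | h | h | h
  · exfalso
    rw [orderOf_eq_one_iff] at h
    have hbi : b = i⁻¹ := (inv_eq_of_mul_eq_one_right h).symm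
    have r1 := rel_of hρ hx hi
    have r2 := rel_of hρ hx hb
    rw [hbi, (ops_four hρ hi.1).2] at r2
    have h6 := r1.six
    have h6' := r2.six
    have h7 : (2 : Module.End (KK p) V) = 0 := by
      have : (2 : Module.End (KK p) V) = (ρ i * ρ x + ρ x * ρ i + ρ i) +
          (-ρ i * ρ x + ρ x * -ρ i + -ρ i) := by rw [h6, h6']; norm_num
      rw [this]; noncomm_ring
    obtain ⟨v, hv⟩ := exists_ne (0 : V)
    have h8 := congrArg (fun f : Module.End (KK p) V => f v) h7
    simp only [LinearMap.zero_apply] at h8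
    have h9 : (2 : Module.End (KK p) V) v = (2 : KK p) • v := by
      rw [two_smul]
      have : (2 : Module.End (KK p) V) = 1 + 1 := by norm_num
      rw [this]; rfl
    rw [h9] at h8
    exact (smul_ne_zero (two_ne_zero' hp) hv) h8
  · left
    have := zg_invol hρ _ _ h (orderOf_sq_of_four hi.1)
    exact mul_left_cancel this
  · exact Or.inr (Or.inl h)
  · exact Or.inr (Or.inr (Or.inl h))
  · exact Or.inr (Or.inr (Or.inr (Or.inl h)))
  · exact Or.inr (Or.inr (Or.inr (Or.inr (Or.inl h))))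
  · exact Or.inr (Or.inr (Or.inr (Or.inr (Or.inr h))))

/-- the type of an eigenvalue of `ρ u + ρ u⁻¹` -/
theorem type_of_order (hρ : Fpf ρ) {u : H}
    (hu : orderOf u = 4 ∨ orderOf u = 5 ∨ orderOf u = 6 ∨ orderOf u = 10) {w : V} (hw : w ≠ 0)
    {t : KK p} (ht : (ρ u + ρ u⁻¹) w = t • w) :
    t = 0 ∨ t = 1 ∨ ((5 : KK p) ≠ 0 ∧ t ^ 2 + t - 1 = 0) ∨ ((5 : KK p) ≠ 0 ∧ t ^ 2 - t - 1 = 0) := by
  have hsq : ((ρ u + ρ u⁻¹) * (ρ u + ρ u⁻¹)) w = (t ^ 2) • w := by
    rw [Module.End.mul_apply, ht, map_smul, ht, smul_smul, pow_two]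
  rcases hu with h | h | h | h
  · left
    rw [(ops_four hρ h).2] at ht
    simp only [add_neg_cancel, LinearMap.zero_apply] at ht
    exact (smul_eq_zero.mp ht.symm).resolve_right hw
  · right; right; left
    refine ⟨by exact_mod_cast ops_char hρ (g := u) (q := 5) (by norm_num) (by rw [h]), ?_⟩
    have h5 := congrArg (fun f : Module.End (KK p) V => f w) (ops_five hρ h)
    simp only [LinearMap.sub_apply, LinearMap.add_apply, hsq, Module.End.one_apply,
      LinearMap.zero_apply] at h5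
    rw [← LinearMap.add_apply, ht] at h5
    have : (t ^ 2 + t - 1) • w = 0 := by rw [sub_smul, add_smul, one_smul]; exact h5
    exact (smul_eq_zero.mp this).resolve_right hw
  · right; left
    rw [ops_six hρ h] at ht
    simp only [Module.End.one_apply] at ht
    have : (t - 1) • w = 0 := by rw [sub_smul, one_smul, ← ht, sub_self]
    exact sub_eq_zero.mp ((smul_eq_zero.mp this).resolve_right hw)
  · right; right; right
    refine ⟨by exact_mod_cast ops_char hρ (g := u) (q := 5) (by norm_num) (by rw [h]; norm_num), ?_⟩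
    have h5 := congrArg (fun f : Module.End (KK p) V => f w) (ops_ten hρ h)
    simp only [LinearMap.sub_apply, hsq, Module.End.one_apply,
      LinearMap.zero_apply] at h5
    rw [ht] at h5
    have : (t ^ 2 - t - 1) • w = 0 := by rw [sub_smul, sub_smul, one_smul]; exact h5
    exact (smul_eq_zero.mp this).resolve_right hw

end lin

section vec
variable {E V : Type*} [Field E] [AddCommGroup V] [Module E V]

theorem tval (h9 : (9 : E) ≠ 0) {X I J B Y Y' : Module.End E V} (hX : X * X + X + 1 = 0)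
    (r : Rel X I) (rb : Rel X B)
    (hAb : 3 * B + (2 * X + 1) = (3 * J + (2 * X + 1)) * Y)
    (hYA : Y * (3 * I + (2 * X + 1)) = (3 * I + (2 * X + 1)) * Y') {w : V} {y y' a c : E}
    (hYw : Y w = y • w) (hY'w : Y' w = y' • w)
    (hP : ((3 * I + (2 * X + 1)) * (3 * J + (2 * X + 1))) w = a • w)
    (hP' : ((3 * J + (2 * X + 1)) * (3 * I + (2 * X + 1))) w = c • w) :
    (I * B + B * I) w = ((a * y + c * y' - 6) / 9) • w := by
  have h1 := r.anti hX rb
  rw [hAb] at h1
  have h2 : (3 * I + (2 * X + 1)) * ((3 * J + (2 * X + 1)) * Y) +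
      (3 * J + (2 * X + 1)) * Y * (3 * I + (2 * X + 1)) - 6 =
      ((3 * I + (2 * X + 1)) * (3 * J + (2 * X + 1))) * Y +
      ((3 * J + (2 * X + 1)) * (3 * I + (2 * X + 1))) * Y' - 6 := by
    rw [mul_assoc (3 * J + (2 * X + 1)) Y, hYA]; noncomm_ring
  rw [h2] at h1
  have h3 := congrArg (fun f : Module.End E V => f w) h1
  have h6 : (6 : Module.End E V) w = (6 : E) • w := num_apply 6 w
  have h9' : ∀ v : V, (9 : Module.End E V) v = (9 : E) • v := fun v => num_apply 9 v
  simp only [LinearMap.sub_apply, LinearMap.add_apply] at h3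
  rw [Module.End.mul_apply, h9', Module.End.mul_apply _ Y, Module.End.mul_apply _ Y', hYw, hY'w,
    map_smul, map_smul, hP, hP', h6] at h3
  have h4 : (I * B + B * I) w = (9 : E)⁻¹ • ((9 : E) • (I * B + B * I) w) := by
    rw [smul_smul, inv_mul_cancel₀ h9, one_smul]
  rw [h4, h3]
  module

end vec

section lin2
variable {p : ℕ} [Fact p.Prime] {H : Type*} [Group H] [Finite H] {V : Type*}
  [AddCommGroup V] [Module (KK p) V] [FiniteDimensional (KK p) V] [Nontrivial V]
  {ρ : Representation (KK p) H V}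

theorem pair (hp : p ≠ 2) (hρ : Fpf ρ) {x i i' : H} (hx : orderOf x = 3)
    (hi : i ∈ Iset x) (hi' : i' ∈ Iset x) :
    ∃ b : H, (b = i' ∨ b = x * i' * x⁻¹ ∨ b = x⁻¹ * i' * x) ∧ (b = i ∨ orderOf (i * b) = 3) := by
  by_contra hcon
  push Not at hcon
  have hb0 := hcon i' (Or.inl rfl)
  have hb1 := hcon (x * i' * x⁻¹) (Or.inr (Or.inl rfl))
  have hb2 := hcon (x⁻¹ * i' * x) (Or.inr (Or.inr rfl))
  have hI1 : x * i' * x⁻¹ ∈ Iset x := mem_Iset_of hi' (Or.inr (Or.inl rfl))
  have hI2 : x⁻¹ * i' * x ∈ Iset x := mem_Iset_of hi' (Or.inr (Or.inr rfl))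
  have o0 := ((order_cases hp hρ hx hi hi').resolve_left hb0.1).resolve_left hb0.2
  have o1 := ((order_cases hp hρ hx hi hI1).resolve_left hb1.1).resolve_left hb1.2
  have o2 := ((order_cases hp hρ hx hi hI2).resolve_left hb2.1).resolve_left hb2.2
  have h2 : (2 : KK p) ≠ 0 := two_ne_zero' hp
  have h3 : (3 : KK p) ≠ 0 := by
    exact_mod_cast ops_char hρ (g := x) (q := 3) (by norm_num) (by rw [hx])
  have h9 : (9 : KK p) ≠ 0 := by
    have : (9 : KK p) = 3 * 3 := by norm_num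
    rw [this]; exact mul_ne_zero h3 h3
  have h36 : (36 : KK p) ≠ 0 := by
    have : (36 : KK p) = 2 * 2 * 9 := by norm_num
    rw [this]; exact mul_ne_zero (mul_ne_zero h2 h2) h9
  have hX := hX_of hρ hx
  have r := rel_of hρ hx hi
  have r' := rel_of hρ hx hi'
  have r1 := rel_of hρ hx hI1
  have r2 := rel_of hρ hx hI2
  have e1 : ρ (x * i' * x⁻¹) = ρ x * ρ i' * (-1 - ρ x) := by
    rw [map_mul, map_mul, inv_of hρ hx]
  have e2 : ρ (x⁻¹ * i' * x) = (-1 - ρ x) * ρ i' * ρ x := by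
    rw [map_mul, map_mul, inv_of hρ hx]
  obtain ⟨w, om, a, hw, hXw, hPw⟩ := exists_common_eigenvector (ρ x)
    ((3 * ρ i + (2 * ρ x + 1)) * (3 * ρ i' + (2 * ρ x + 1))) (r.comm_prod hX r')
  have hom : om ^ 2 + om + 1 = 0 := by
    have h := congrArg (fun f : Module.End (KK p) V => f w) hX
    simp only [LinearMap.add_apply, Module.End.mul_apply, hXw, map_smul, Module.End.one_apply,
      LinearMap.zero_apply, smul_smul] at h
    have : (om ^ 2 + om + 1) • w = 0 := by rw [← h]; module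
    exact (smul_eq_zero.mp this).resolve_right hw
  have hXiw : (-1 - ρ x) w = (-1 - om) • w := by
    simp only [LinearMap.sub_apply, LinearMap.neg_apply, Module.End.one_apply, hXw]; module
  have hPP := congrArg (fun f : Module.End (KK p) V => f w) (r.prod_prod hX r')
  rw [Module.End.mul_apply, hPw, map_smul, num_apply 36 w] at hPP
  have ha : a ≠ 0 := by
    rintro rfl
    rw [zero_smul] at hPP
    exact (smul_ne_zero h36 hw) hPP.symm
  have hP'w : ((3 * ρ i' + (2 * ρ x + 1)) * (3 * ρ i + (2 * ρ x + 1))) w = (36 / a) • w := by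
    have : ((3 * ρ i' + (2 * ρ x + 1)) * (3 * ρ i + (2 * ρ x + 1))) w =
        a⁻¹ • (a • ((3 * ρ i' + (2 * ρ x + 1)) * (3 * ρ i + (2 * ρ x + 1))) w) := by
      rw [smul_smul, inv_mul_cancel₀ ha, one_smul]
    rw [this, hPP, smul_smul]
    congr 1
    field_simp
  have t0 := tval h9 hX r r' (Y := 1) (Y' := 1) (J := ρ i') (by rw [mul_one]) (by rw [one_mul, mul_one])
    (y := 1) (y' := 1) (w := w) (by simp) (by simp) hPw hP'w
  have t1 := tval h9 hX r (e1 ▸ r1) (Y := ρ x) (Y' := -1 - ρ x) (J := ρ i') (r'.A_conj hX) (r.XA hX)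
    hXw hXiw hPw hP'w
  have t2 := tval h9 hX r (e2 ▸ r2) (Y := -1 - ρ x) (Y' := ρ x) (J := ρ i') (r'.A_conj' hX)
    (r.AX hX).symm hXiw hXw hPw hP'w
  rw [← anti_of hρ hi.1 hi'.1] at t0
  rw [← e1, ← anti_of hρ hi.1 hI1.1] at t1
  rw [← e2, ← anti_of hρ hi.1 hI2.1] at t2
  have T0 := type_of_order hρ o0 hw t0
  have T1 := type_of_order hρ o1 hw t1
  have T2 := type_of_order hρ o2 hw t2
  refine Helper71ZaNum.num h2 h3 _ _ _ ?_ ?_ T0 T1 T2
  · field_simp
    ring
  · field_simp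
    linear_combination 2 * (a ^ 2 - 36) ^ 2 * hom

end lin2

end Cfsg.Agent.Lib.Helper71ZaPair
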