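import Mathlib
import Cfsg.Agent.Lib.Helper71ZaDefs
import Cfsg.Agent.Lib.Helper76ZaOPS
import Cfsg.Agent.Lib.Helper76ZaZ12
import Cfsg.Agent.Lib.Helper71ZaCalc
import Cfsg.Agent.Lib.Helper71ZaGrp
import Cfsg.Agent.Lib.Helper71ZaBasic

/-!
# Zassenhaus project: scenario B is impossible
-/

set_option autoImplicit false

namespace Cfsg.Agent.Lib.Helper71ZaSCB

open Cfsg.Agent.Lib.Helper71ZaDefs Cfsg.Agent.Lib.Helper76ZaOPS Cfsg.Agent.Lib.Helper76ZaZ12
  Cfsg.Agent.Lib.Helper71ZaCalc Cfsg.Agent.Lib.Helper71ZaGrp Cfsg.Agent.Lib.Helper71ZaBasic Subgroup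

section ring
variable {R : Type*} [Ring R]

/-- the relations of `A = 3 I + (2 X + 1)` -/
structure AR (X A : R) : Prop where
  sq : A * A = -6
  ax : A * X = (-1 - X) * A
  xa : X * A = A * (-1 - X)

variable {X A A' A₁ A₂ A₃ p q : R}

theorem AR.comm (h : AR X A) (h' : AR X A') : X * (A * A') = (A * A') * X := by
  rw [← mul_assoc, h.xa, mul_assoc, ← h'.ax, mul_assoc]

/-- `p = A' A` satisfies `p² + 3 p + 36 = 0` -/
theorem AR.quad (h : AR X A) (h' : AR X A') (c : A * A' + A' * A = -3) :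
    (A' * A) * (A' * A) = -3 * (A' * A) - 36 := by
  have h1 : (A' * A) * (A' * A) = A' * (A * A' + A' * A) * A - (A' * A') * (A * A) := by
    noncomm_ring
  rw [h1, c, h.sq, h'.sq]; grind

theorem comm_T (hp : p * p = -3 * p - 36) :
    p * (-3 * (p + q) - (p * q + q * p)) = (-3 * (p + q) - (p * q + q * p)) * p := by
  have h1 : p * (-3 * (p + q) - (p * q + q * p)) - (-3 * (p + q) - (p * q + q * p)) * p =
      -3 * (p * q) + 3 * (q * p) - (p * p) * q + q * (p * p) := by grind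
  rw [hp] at h1
  have h2 : -3 * (p * q) + 3 * (q * p) - (-3 * p - 36) * q + q * (-3 * p - 36) = 0 := by grind
  rw [h2] at h1
  exact sub_eq_zero.mp h1

/-- the key: `p` and `q` commute (up to the factor `108`) -/
theorem comm_pq (hX : X * X + X + 1 = 0) (hp : p * p = -3 * p - 36) (hpX : X * p = p * X)
    (hqX : X * q = q * X)
    (hc : p * (-3 - q) * X + q * (-3 - p) * (-1 - X) = 18) :
    108 * (p * q - q * p) = 0 := by
  -- `U = q (-3 - p)`, `T = U + W`
  have hT := comm_T (q := q) hp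
  set T := -3 * (p + q) - (p * q + q * p) with hTdef
  have hU : q * (-3 - p) * (2 * X + 1) = T * X - 18 := by
    rw [← hc, hTdef]; grind
  have hU3 : -3 * (q * (-3 - p)) = (T * X - 18) * (2 * X + 1) := by
    rw [← hU, mul_assoc, x0_sq hX]; grind
  have hUp : q * (-3 - p) * p = 36 * q := by
    have : q * (-3 - p) * p = -3 * (q * p) - q * (p * p) := by grind
    rw [this, hp]; grind
  have hcomm : p * ((T * X - 18) * (2 * X + 1)) = ((T * X - 18) * (2 * X + 1)) * p := by
    have e1 : p * ((T * X - 18) * (2 * X + 1)) =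
        2 * (p * T * X * X) + p * T * X - 36 * (p * X) - 18 * p := by grind
    have e2 : ((T * X - 18) * (2 * X + 1)) * p =
        2 * (T * X * (X * p)) + T * (X * p) - 36 * (X * p) - 18 * p := by grind
    rw [e1, e2, hpX, hT]
    have e3 : T * X * (p * X) = T * (X * p) * X := by noncomm_ring
    rw [e3, hpX]; noncomm_ring
  rw [← hU3] at hcomm
  have key : 108 * (p * q) = 108 * (q * p) := by
    calc 108 * (p * q) = 3 * (p * (36 * q)) := by grind
      _ = 3 * (p * (q * (-3 - p) * p)) := by rw [hUp]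
      _ = -((p * (-3 * (q * (-3 - p)))) * p) := by grind
      _ = -(((-3 * (q * (-3 - p))) * p) * p) := by rw [hcomm]
      _ = 3 * ((q * (-3 - p) * p) * p) := by grind
      _ = 3 * (36 * q * p) := by rw [hUp]
      _ = 108 * (q * p) := by grind
  rw [mul_sub, key, sub_self]

/-- the condition in terms of `p = A₂ A₁`, `q = A₃ A₁` -/
theorem cond_pq (h₁ : AR X A₁) (h₂ : AR X A₂) (h₃ : AR X A₃) (c12 : A₁ * A₂ + A₂ * A₁ = -3)
    (c13 : A₁ * A₃ + A₃ * A₁ = -3) (c23 : A₂ * (A₃ * X) + (A₃ * X) * A₂ = -3) :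
    (A₂ * A₁) * (-3 - A₃ * A₁) * X + (A₃ * A₁) * (-3 - A₂ * A₁) * (-1 - X) = 18 := by
  have e1 : -3 - A₃ * A₁ = A₁ * A₃ := by rw [← c13]; abel
  have e2 : -3 - A₂ * A₁ = A₁ * A₂ := by rw [← c12]; abel
  rw [e1, e2]
  have e3 : A₂ * A₁ * (A₁ * A₃) * X + A₃ * A₁ * (A₁ * A₂) * (-1 - X) =
      A₂ * (A₁ * A₁) * A₃ * X + A₃ * (A₁ * A₁) * (A₂ * (-1 - X)) := by noncomm_ring
  rw [e3, h₁.sq, ← h₂.xa]
  have e4 : A₂ * (-6) * A₃ * X + A₃ * (-6) * (X * A₂) =
      -6 * (A₂ * (A₃ * X) + (A₃ * X) * A₂) := by grind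
  rw [e4, c23]; grind

theorem AR.of_rel {I : R} (hX : X * X + X + 1 = 0) (r : Rel X I) : AR X (3 * I + (2 * X + 1)) :=
  ⟨r.A_sq hX, r.AX hX, r.XA hX⟩

theorem anti_three {I I' : R} (hX : X * X + X + 1 = 0) (r : Rel X I) (r' : Rel X I')
    (h : I * I' + I' * I = -1) :
    (3 * I + (2 * X + 1)) * (3 * I' + (2 * X + 1)) +
      (3 * I' + (2 * X + 1)) * (3 * I + (2 * X + 1)) = -3 := by
  have h1 := r.anti hX r'
  rw [h] at h1
  have h2 : (3 * I + (2 * X + 1)) * (3 * I' + (2 * X + 1)) +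
      (3 * I' + (2 * X + 1)) * (3 * I + (2 * X + 1)) = 9 * (-1 : R) + 6 := by
    rw [h1]; abel
  rw [h2]; grind

end ring

/-- the numerical contradiction -/
theorem num_B {E : Type*} [Field E] (h2 : (2 : E) ≠ 0) (h3 : (3 : E) ≠ 0) {om a b : E}
    (hom : om ^ 2 + om + 1 = 0) (ha : a ^ 2 + 3 * a + 36 = 0) (hb : b ^ 2 + 3 * b + 36 = 0)
    (hc : a * (-3 - b) * om + b * (-3 - a) * (-1 - om) = 18) : False := by
  have h : (b - a) * (b + a + 3) = 0 := by linear_combination hb - ha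
  rcases mul_eq_zero.mp h with h | h
  · have hba : b = a := sub_eq_zero.mp h
    subst hba
    have : (2 : E) * 3 ^ 3 = 0 := by linear_combination ha - hc
    exact (mul_ne_zero h2 (pow_ne_zero 3 h3)) this
  · have hba : b = -3 - a := by linear_combination h
    subst hba
    have e1 : (3 : E) * (a * (2 * om + 1) - (3 - 3 * om)) = 0 := by
      linear_combination -hc - ha
    have e2 : a * (2 * om + 1) = 3 - 3 * om :=
      sub_eq_zero.mp ((mul_eq_zero.mp e1).resolve_left h3)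
    have e3 : (3 : E) * (a - (-3 * om - 3)) = 0 := by
      linear_combination -(2 * om + 1) * e2 + (4 * a + 6) * hom
    have e4 : a = -3 * om - 3 := sub_eq_zero.mp ((mul_eq_zero.mp e3).resolve_left h3)
    subst e4
    have : (3 : E) ^ 3 = 0 := by linear_combination ha - 9 * hom
    exact (pow_ne_zero 3 h3) this

section lin2
variable {p : ℕ} [Fact p.Prime] {H : Type*} [Group H] [Finite H] {V : Type*}
  [AddCommGroup V] [Module (KK p) V] [FiniteDimensional (KK p) V] [Nontrivial V]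
  {ρ : Representation (KK p) H V}

theorem scenarioB (hρ : Fpf ρ) {x i₁ i₂ i₃ : H} (hx : orderOf x = 3)
    (h₁ : i₁ ∈ Iset x) (h₂ : i₂ ∈ Iset x) (h₃ : i₃ ∈ Iset x) (h₁₂ : orderOf (i₁ * i₂) = 3)
    (h₁₃ : orderOf (i₁ * i₃) = 3) (h₂₃ : orderOf (i₂ * (x * i₃ * x⁻¹)) = 3) : False := by
  have h2 : (2 : KK p) ≠ 0 := by
    exact_mod_cast ops_char hρ (g := i₁) (q := 2) (by norm_num) (by rw [h₁.1]; norm_num)
  have h3 : (3 : KK p) ≠ 0 := by
    exact_mod_cast ops_char hρ (g := x) (q := 3) (by norm_num) (by rw [hx])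
  have h108 : (108 : KK p) ≠ 0 := by
    have : (108 : KK p) = 2 ^ 2 * 3 ^ 3 := by norm_num
    rw [this]; exact mul_ne_zero (pow_ne_zero 2 h2) (pow_ne_zero 3 h3)
  have hI3 : x * i₃ * x⁻¹ ∈ Iset x := mem_Iset_of h₃ (Or.inr (Or.inl rfl))
  have hX := hX_of hρ hx
  have r₁ := rel_of hρ hx h₁
  have r₂ := rel_of hρ hx h₂
  have r₃ := rel_of hρ hx h₃
  have r₃' := rel_of hρ hx hI3
  have e3 : ρ (x * i₃ * x⁻¹) = ρ x * ρ i₃ * (-1 - ρ x) := by
    rw [map_mul, map_mul, inv_of hρ hx]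
  have c12 := anti_three hX r₁ r₂ (by rw [← anti_of hρ h₁.1 h₂.1, ops_three hρ h₁₂])
  have c13 := anti_three hX r₁ r₃ (by rw [← anti_of hρ h₁.1 h₃.1, ops_three hρ h₁₃])
  have c23 := anti_three hX r₂ r₃' (by rw [← anti_of hρ h₂.1 hI3.1, ops_three hρ h₂₃])
  rw [e3, r₃.A_conj hX] at c23
  have a₁ := AR.of_rel hX r₁
  have a₂ := AR.of_rel hX r₂
  have a₃ := AR.of_rel hX r₃
  set X := ρ x with hXdef
  set A₁ := 3 * ρ i₁ + (2 * X + 1) with hA₁
  set A₂ := 3 * ρ i₂ + (2 * X + 1) with hA₂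
  set A₃ := 3 * ρ i₃ + (2 * X + 1) with hA₃
  have hP := a₁.quad a₂ c12
  have hQ := a₁.quad a₃ c13
  have hPX := a₂.comm a₁
  have hQX := a₃.comm a₁
  have hc := cond_pq a₁ a₂ a₃ c12 c13 c23
  have hPQ : (A₂ * A₁) * (A₃ * A₁) = (A₃ * A₁) * (A₂ * A₁) :=
    sub_eq_zero.mp (num_cancel 108 h108 (comm_pq hX hP hPX hQX hc))
  obtain ⟨w, om, a, b, hw, hXw, hPw, hQw⟩ :=
    exists_common_eigenvector₃ X (A₂ * A₁) (A₃ * A₁) hPX hQX hPQ
  set P := A₂ * A₁ with hPdef
  set Q := A₃ * A₁ with hQdef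
  have hom : om ^ 2 + om + 1 = 0 := by
    have h := congrArg (fun f : Module.End (KK p) V => f w) hX
    simp only [LinearMap.add_apply, Module.End.mul_apply, hXw, map_smul, Module.End.one_apply,
      LinearMap.zero_apply, smul_smul] at h
    have : (om ^ 2 + om + 1) • w = 0 := by rw [← h]; module
    exact (smul_eq_zero.mp this).resolve_right hw
  have n3 : ∀ v : V, (3 : Module.End (KK p) V) v = (3 : KK p) • v := fun v => num_apply 3 v
  have n36 : ∀ v : V, (36 : Module.End (KK p) V) v = (36 : KK p) • v := fun v => num_apply 36 v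
  have n18 : ∀ v : V, (18 : Module.End (KK p) V) v = (18 : KK p) • v := fun v => num_apply 18 v
  have ha : a ^ 2 + 3 * a + 36 = 0 := by
    have h := congrArg (fun f : Module.End (KK p) V => f w) hP
    simp only [LinearMap.sub_apply, LinearMap.neg_apply, Module.End.mul_apply, hPw, map_smul, n3,
      n36, smul_smul] at h
    have : (a ^ 2 + 3 * a + 36) • w = 0 := by
      rw [← sub_eq_zero] at h
      convert h using 1
      module
    exact (smul_eq_zero.mp this).resolve_right hw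
  have hb : b ^ 2 + 3 * b + 36 = 0 := by
    have h := congrArg (fun f : Module.End (KK p) V => f w) hQ
    simp only [LinearMap.sub_apply, LinearMap.neg_apply, Module.End.mul_apply, hQw, map_smul, n3,
      n36, smul_smul] at h
    have : (b ^ 2 + 3 * b + 36) • w = 0 := by
      rw [← sub_eq_zero] at h
      convert h using 1
      module
    exact (smul_eq_zero.mp this).resolve_right hw
  have hcc : a * (-3 - b) * om + b * (-3 - a) * (-1 - om) = 18 := by
    have h := congrArg (fun f : Module.End (KK p) V => f w) hc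
    simp only [LinearMap.sub_apply, LinearMap.add_apply, LinearMap.neg_apply, Module.End.mul_apply,
      Module.End.one_apply, hXw, hPw, hQw, map_smul, map_sub, map_neg, n3, n18, smul_smul] at h
    have : (a * (-3 - b) * om + b * (-3 - a) * (-1 - om) - 18) • w = 0 := by
      rw [← sub_eq_zero] at h
      convert h using 1
      module
    exact sub_eq_zero.mp ((smul_eq_zero.mp this).resolve_right hw)
  exact num_B h2 h3 hom ha hb hcc

end lin2

end Cfsg.Agent.Lib.Helper71ZaSCB
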