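import Mathlib
import Cfsg.Agent.Lib.Helper71ZaDefs
import Cfsg.Agent.Lib.Helper76ZaTWO
import Cfsg.Agent.Lib.Helper76ZaORD
import Cfsg.Agent.Lib.Helper76ZaOPS
import Cfsg.Agent.Lib.Helper76ZaZ12
import Cfsg.Agent.Lib.Helper76ZaSCA
import Cfsg.Agent.Lib.Helper71ZaSCB
import Cfsg.Agent.Lib.Helper71ZaPair
import Cfsg.Agent.Lib.Helper71ZaGrp

set_option autoImplicit false

namespace Cfsg.Agent.Lib.Helper71ZaAsmA

open Cfsg.Agent.Lib.Helper71ZaDefs Cfsg.Agent.Lib.Helper76ZaTWO Cfsg.Agent.Lib.Helper76ZaORD Cfsg.Agent.Lib.Helper71ZaGrp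
  Cfsg.Agent.Lib.Helper76ZaOPS Cfsg.Agent.Lib.Helper76ZaZ12 Cfsg.Agent.Lib.Helper76ZaSCA
  Cfsg.Agent.Lib.Helper71ZaSCB Cfsg.Agent.Lib.Helper71ZaPair Subgroup

section lin
variable {p : ℕ} [Fact p.Prime] {H : Type*} [Group H] [Finite H] {V : Type*}
  [AddCommGroup V] [Module (KK p) V] [FiniteDimensional (KK p) V] [Nontrivial V]
  {ρ : Representation (KK p) H V}

theorem scalar_of_order (hρ : Fpf ρ) {a : H}
    (ha : orderOf a = 3 ∨ orderOf a = 4 ∨ orderOf a = 6) : ∃ α : KK p, ρ a + ρ a⁻¹ = α • 1 := by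
  rcases ha with h | h | h
  · exact ⟨-1, by rw [ops_three hρ h]; simp⟩
  · exact ⟨0, by rw [(ops_four hρ h).2]; simp⟩
  · exact ⟨1, by rw [ops_six hρ h]; simp⟩

theorem two' (hp : p ≠ 2) (hρ : Fpf ρ) (a b : H)
    (ha : orderOf a = 3 ∨ orderOf a = 4 ∨ orderOf a = 6)
    (hb : orderOf b = 3 ∨ orderOf b = 4 ∨ orderOf b = 6) : Bin (closure {a, b}) := by
  obtain ⟨α, hα⟩ := scalar_of_order hρ ha
  obtain ⟨β, hβ⟩ := scalar_of_order hρ hb
  exact small_two hp hρ a b α β hα hβ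

theorem three' (hp : p ≠ 2) (hρ : Fpf ρ) (x i₁ i₂ : H) (hx : orderOf x = 3)
    (h₁ : i₁ ∈ Iset x) (h₂ : i₂ ∈ Iset x) : Bin (closure {i₁, i₂, x}) := by
  obtain ⟨b, hb, hb'⟩ := pair hp hρ hx h₁ h₂
  rw [closure_swap hb]
  rcases hb' with rfl | h3
  · have : ({b, b, x} : Set H) = {b, x} := by simp
    rw [this]
    exact two' hp hρ b x (Or.inr (Or.inl h₁.1)) (Or.inl hx)
  · exact small_three_adj hp hρ hx h₁ (mem_Iset_of h₂ hb) h3

theorem four' (hp : p ≠ 2) (hρ : Fpf ρ) (x i₁ i₂ i₃ : H) (hx : orderOf x = 3)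
    (h₁ : i₁ ∈ Iset x) (h₂ : i₂ ∈ Iset x) (h₃ : i₃ ∈ Iset x)
    (hn : i₂ ∉ closure {i₁, x}) : i₃ ∈ closure {i₁, i₂, x} := by
  obtain ⟨b₂, hb₂, hb₂'⟩ := pair hp hρ hx h₁ h₂
  obtain ⟨b₃, hb₃, hb₃'⟩ := pair hp hρ hx h₁ h₃
  have hI₂ := mem_Iset_of h₂ hb₂
  have hI₃ := mem_Iset_of h₃ hb₃
  -- it suffices to show `b₃ ∈ closure {i₁, b₂, x}`
  rw [closure_swap hb₂]
  have hxm : x ∈ closure ({i₁, b₂, x} : Set H) := subset_closure (by simp)
  have h1m : i₁ ∈ closure ({i₁, b₂, x} : Set H) := subset_closure (by simp)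
  have h2m : b₂ ∈ closure ({i₁, b₂, x} : Set H) := subset_closure (by simp)
  have key : b₃ ∈ closure ({i₁, b₂, x} : Set H) → i₃ ∈ closure ({i₁, b₂, x} : Set H) := by
    intro h
    rcases hb₃ with rfl | rfl | rfl
    · exact h
    · have := mul_mem (mul_mem (inv_mem hxm) h) hxm
      simpa [mul_assoc] using this
    · have := mul_mem (mul_mem hxm h) (inv_mem hxm)
      simpa [mul_assoc] using this
  apply key
  have h12 : orderOf (i₁ * b₂) = 3 := by
    rcases hb₂' with rfl | h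
    · exfalso
      apply hn
      have hx' : x ∈ closure ({b₂, x} : Set H) := subset_closure (by simp)
      have hb' : b₂ ∈ closure ({b₂, x} : Set H) := subset_closure (by simp)
      rcases hb₂ with h | h | h
      · rw [← h]; exact hb'
      · have := mul_mem (mul_mem (inv_mem hx') hb') hx'
        have e : x⁻¹ * b₂ * x = i₂ := by rw [h]; group
        rwa [e] at this
      · have := mul_mem (mul_mem hx' hb') (inv_mem hx')
        have e : x * b₂ * x⁻¹ = i₂ := by rw [h]; group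
        rwa [e] at this
    · exact h
  rcases hb₃' with rfl | h13
  · exact h1m
  obtain ⟨c, hc, hc'⟩ := pair hp hρ hx hI₂ hI₃
  rcases hc' with rfl | h23
  · rcases hc with h | h | h
    · rw [← h]; exact h2m
    · have := mul_mem (mul_mem (inv_mem hxm) h2m) hxm
      have e : x⁻¹ * c * x = b₃ := by rw [h]; group
      rwa [e] at this
    · have := mul_mem (mul_mem hxm h2m) (inv_mem hxm)
      have e : x * c * x⁻¹ = b₃ := by rw [h]; group
      rwa [e] at this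
  · rcases hc with rfl | rfl | rfl
    · exact scenarioA hρ hx h₁ hI₂ hI₃ h12 h13 h23
    · exact (scenarioB hρ hx h₁ hI₂ hI₃ h12 h13 h23).elim
    · exfalso
      -- conjugate by `x` and swap the roles
      have h1 : orderOf (b₃ * (x * b₂ * x⁻¹)) = 3 := by
        rw [← h23]
        have e1 : b₃ * (x * b₂ * x⁻¹) = (x * b₂ * x⁻¹)⁻¹ * ((x * b₂ * x⁻¹) * b₃) * (x * b₂ * x⁻¹) := by
          group
        have e2 : (x * b₂ * x⁻¹) * b₃ = x * (b₂ * (x⁻¹ * b₃ * x)) * x⁻¹ := by group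
        rw [e1, e2]
        have := orderOf_cj (x * b₂ * x⁻¹)⁻¹ (x * (b₂ * (x⁻¹ * b₃ * x)) * x⁻¹)
        rw [inv_inv] at this
        rw [this]
        exact orderOf_cj x (b₂ * (x⁻¹ * b₃ * x))
      exact scenarioB hρ hx h₁ hI₃ hI₂ h13 h12 h1

end lin

theorem zg_of_fc {H : Type*} [Group H] [Finite H] (h : FC H) (heven : 2 ∣ Nat.card H) : ZG H := by
  obtain ⟨p, _, d, ρ, hd, hρ⟩ := h
  have : Nonempty (Fin d) := ⟨⟨0, hd⟩⟩
  have hp : p ≠ 2 := by
    rintro rfl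
    obtain ⟨z, hz⟩ := exists_prime_orderOf_dvd_card' 2 heven
    have := ops_char hρ (g := z) Nat.prime_two (by rw [hz])
    apply this
    exact_mod_cast CharP.cast_eq_zero (KK 2) 2
  exact
    { invol := zg_invol hρ
      cyc := zg_cyc hρ
      two := two' hp hρ
      three := three' hp hρ
      four := four' hp hρ }

end Cfsg.Agent.Lib.Helper71ZaAsmA
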