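import Mathlib
import Cfsg.Agent.Lib.Helper72Idx

set_option autoImplicit false

namespace Cfsg.Agent.Lib.Helper72Knoche

open Cfsg.Agent.Lib.Helper72Idx

variable {X : Type*} [Group X]

theorem comm_ne_one_iff (a x : X) : a * x * a⁻¹ * x⁻¹ ≠ 1 ↔ x ∉ Subgroup.centralizer ({a} : Set X) := by
  rw [Subgroup.mem_centralizer_singleton_iff, not_iff_not]
  constructor
  · intro h
    calc x * a = (a * x * a⁻¹ * x⁻¹)⁻¹ * (a * x) := by group
      _ = a * x := by rw [h]; group
  · intro h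
    calc a * x * a⁻¹ * x⁻¹ = (a * x) * a⁻¹ * x⁻¹ := by group
      _ = 1 := by rw [← h]; group

/-- **Knoche**: a finite `q`-group whose class sizes are at most `q` has derived subgroup of order at
most `q`. -/
theorem knoche [Finite X] {q : ℕ} [Fact q.Prime] (hX : IsPGroup q X)
    (h : ∀ a : X, (Subgroup.centralizer ({a} : Set X)).index ≤ q) :
    ∃ T : Subgroup X, Nat.card T ≤ q ∧ ∀ a b : X, a * b * a⁻¹ * b⁻¹ ∈ T := by
  have hq : q.Prime := Fact.out
  have hXtop : IsPGroup q (⊤ : Subgroup X) := hX.to_subgroup ⊤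
  have hcard : ∀ a : X, Nat.card (⊤ : Subgroup X) ≤
      q * Nat.card (Subgroup.centralizer ({a} : Set X)) := by
    intro a
    rw [Subgroup.card_top, ← Subgroup.card_mul_index (Subgroup.centralizer ({a} : Set X)), mul_comm]
    exact Nat.mul_le_mul_right _ (h a)
  have hfacts := fun a => pow_comm_mem_of_card_le q ⊤ (Subgroup.centralizer ({a} : Set X)) hXtop
    le_top (hcard a)
  have hcentral : ∀ u v g : X, g * (u * v * u⁻¹ * v⁻¹) = (u * v * u⁻¹ * v⁻¹) * g := by
    intro u v g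
    have := (hfacts g).2.1 u (Subgroup.mem_top u) v (Subgroup.mem_top v)
    exact (Subgroup.mem_centralizer_singleton_iff.mp this).symm
  have hnormal : ∀ a : X, (Subgroup.centralizer ({a} : Set X)).Normal := fun a =>
    ⟨fun s hs u => (hfacts a).2.2 u (Subgroup.mem_top u) s hs⟩
  -- conjugating powers
  have hconj : ∀ (a b : X) (i : ℤ), a * b ^ i * a⁻¹ = (a * b * a⁻¹ * b⁻¹) ^ i * b ^ i := by
    intro a b i
    have h1 : a * b ^ i * a⁻¹ = (a * b * a⁻¹) ^ i := (conj_zpow).symm
    have h2 : a * b * a⁻¹ = (a * b * a⁻¹ * b⁻¹) * b := by group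
    have h3 : Commute (a * b * a⁻¹ * b⁻¹) b := (hcentral a b b).symm
    rw [h1, h2, h3.mul_zpow]
    congr 2
    group
  have L1 : ∀ a b : X, a * b * a⁻¹ * b⁻¹ ≠ 1 → ∀ x : X,
      a * x * a⁻¹ * x⁻¹ ∈ Subgroup.zpowers (a * b * a⁻¹ * b⁻¹) := by
    intro a b hab x
    have hb : b ∉ Subgroup.centralizer ({a} : Set X) := (comm_ne_one_iff a b).mp hab
    haveI := hnormal a
    have htop : Subgroup.zpowers b ⊔ Subgroup.centralizer ({a} : Set X) = ⊤ :=
      le_of_card_le_of_not_mem q ⊤ (Subgroup.centralizer ({a} : Set X)) _ hXtop le_sup_right le_top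
        (hcard a) b (Subgroup.mem_sup_left (Subgroup.mem_zpowers b)) hb
    have hx : x ∈ Subgroup.zpowers b ⊔ Subgroup.centralizer ({a} : Set X) := htop ▸ Subgroup.mem_top x
    obtain ⟨y, hy, c, hc, rfl⟩ := Subgroup.mem_sup_of_normal_right.mp hx
    obtain ⟨i, rfl⟩ := Subgroup.mem_zpowers_iff.mp hy
    have hc' : c * a = a * c := Subgroup.mem_centralizer_singleton_iff.mp hc
    refine Subgroup.mem_zpowers_iff.mpr ⟨i, ?_⟩
    have h1 : a * (b ^ i * c) * a⁻¹ * (b ^ i * c)⁻¹ = (a * b ^ i * a⁻¹) * ((a * c) * a⁻¹ * c⁻¹) * (b ^ i)⁻¹ := by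
      group
    rw [h1, ← hc', hconj]
    group
  by_cases hex : ∃ a b : X, a * b * a⁻¹ * b⁻¹ ≠ 1
  swap
  · push_neg at hex
    exact ⟨⊥, by rw [Subgroup.card_bot]; exact hq.one_lt.le, fun a b => by
      rw [hex a b]; exact Subgroup.one_mem _⟩
  obtain ⟨a, b, hab⟩ := hex
  refine ⟨Subgroup.zpowers (a * b * a⁻¹ * b⁻¹), ?_, ?_⟩
  · rw [Nat.card_zpowers]
    apply Nat.le_of_dvd hq.pos
    apply orderOf_dvd_of_pow_eq_one
    have h1 := hconj a b (q : ℤ)
    have h2 : b ^ q ∈ Subgroup.centralizer ({a} : Set X) := (hfacts a).1 b (Subgroup.mem_top b)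
    have h3 : b ^ q * a = a * b ^ q := Subgroup.mem_centralizer_singleton_iff.mp h2
    rw [zpow_natCast, zpow_natCast, ← h3] at h1
    have h4 : b ^ q * a * a⁻¹ = 1 * b ^ q := by group
    rw [h4] at h1
    exact (mul_right_cancel h1).symm
  · have hsymm : ∀ u v : X, u * v * u⁻¹ * v⁻¹ = (v * u * v⁻¹ * u⁻¹)⁻¹ := by
      intro u v; group
    have hchain : ∀ {x y w : X}, x ∈ Subgroup.zpowers y → y ∈ Subgroup.zpowers w →
        x ∈ Subgroup.zpowers w := fun hx hy => (Subgroup.zpowers_le.mpr hy) hx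
    intro c d
    by_cases hcd : c * d * c⁻¹ * d⁻¹ = 1
    · rw [hcd]; exact Subgroup.one_mem _
    obtain ⟨e, hea, hec⟩ : ∃ e : X, a * e * a⁻¹ * e⁻¹ ≠ 1 ∧ c * e * c⁻¹ * e⁻¹ ≠ 1 := by
      by_cases h1 : c * b * c⁻¹ * b⁻¹ = 1
      · by_cases h2 : a * d * a⁻¹ * d⁻¹ = 1
        · refine ⟨b * d, ?_, ?_⟩
          · rw [comm_ne_one_iff]
            intro hmem
            have hd : d ∈ Subgroup.centralizer ({a} : Set X) := by
              by_contra hd
              exact (comm_ne_one_iff a d).mpr hd h2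
            have : b ∈ Subgroup.centralizer ({a} : Set X) := by
              have := Subgroup.mul_mem _ hmem (Subgroup.inv_mem _ hd)
              simpa using this
            exact (comm_ne_one_iff a b).mp hab this
          · rw [comm_ne_one_iff]
            intro hmem
            have hb : b ∈ Subgroup.centralizer ({c} : Set X) := by
              by_contra hb
              exact (comm_ne_one_iff c b).mpr hb h1
            have : d ∈ Subgroup.centralizer ({c} : Set X) := by
              have := Subgroup.mul_mem _ (Subgroup.inv_mem _ hb) hmem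
              simpa using this
            exact (comm_ne_one_iff c d).mp hcd this
        · exact ⟨d, h2, hcd⟩
      · exact ⟨b, hab, h1⟩
    have s1 := L1 c e hec d
    have hec' : e * c * e⁻¹ * c⁻¹ ≠ 1 := by
      intro h; apply hec; rw [hsymm, h, inv_one]
    have hea' : e * a * e⁻¹ * a⁻¹ ≠ 1 := by
      intro h; apply hea; rw [hsymm, h, inv_one]
    have s2 : c * e * c⁻¹ * e⁻¹ ∈ Subgroup.zpowers (e * c * e⁻¹ * c⁻¹) := by
      rw [hsymm c e]; exact Subgroup.inv_mem _ (Subgroup.mem_zpowers _)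
    have s3 := L1 e a hea' c
    have s4 : e * a * e⁻¹ * a⁻¹ ∈ Subgroup.zpowers (a * e * a⁻¹ * e⁻¹) := by
      rw [hsymm e a]; exact Subgroup.inv_mem _ (Subgroup.mem_zpowers _)
    have s5 := L1 a b hab e
    exact hchain (hchain (hchain (hchain s1 s2) s3) s4) s5

end Cfsg.Agent.Lib.Helper72Knoche
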