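import Mathlib
import Cfsg.Prelude.Def_Transfer
import Cfsg.Agent.Lib.Helper72Pi
import Cfsg.Agent.Lib.Helper72PiCount
import Cfsg.Agent.Lib.Helper72Class
import Cfsg.Agent.Lib.Helper72PElt
import Cfsg.Agent.Lib.Helper72Cyclic
import Cfsg.Agent.Lib.Helper72Frob

set_option autoImplicit false

namespace Cfsg.Agent.Lib.Helper72PNil

open Cfsg.Agent.Lib.Helper72Pi Cfsg.Agent.Lib.Helper72Class Cfsg.Agent.Lib.Helper72PElt
  Cfsg.Agent.Lib.Helper72PiCount Cfsg.Agent.Lib.Helper72Cyclic Cfsg.Agent.Lib.Helper72Frob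
open scoped Pointwise

/-- the `p`-regular elements of `Y` form a subgroup (i.e. `Y` is `p`-nilpotent) -/
def PNilIn {G : Type*} [Group G] (p : ℕ) (Y : Subgroup G) : Prop :=
  ∃ M : Subgroup G, ∀ g, g ∈ M ↔ g ∈ Y ∧ (orderOf g).Coprime p

theorem eq_one_of_isP_of_coprime {G : Type*} [Group G] {p : ℕ} {g : G}
    (h1 : ∃ k : ℕ, orderOf g = p ^ k) (h2 : (orderOf g).Coprime p) : g = 1 := by
  obtain ⟨k, hk⟩ := h1
  rw [← orderOf_eq_one_iff]
  have h3 : (orderOf g).Coprime (orderOf g) := by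
    conv_rhs => rw [hk]
    exact h2.pow_right k
  exact (Nat.coprime_self _).mp h3

/-- in a `p`-nilpotent `Y`, a `p`-regular element normalising a `p`-subgroup centralises it -/
theorem PNilIn.commute {G : Type*} [Group G] {p : ℕ} [Fact p.Prime] {Y : Subgroup G}
    (h : PNilIn p Y) (U : Subgroup G) (hU : IsPGroup p U) (hUY : U ≤ Y) (y : G) (hy : y ∈ Y)
    (hyp : (orderOf y).Coprime p) (hyU : ∀ u ∈ U, y * u * y⁻¹ ∈ U) :
    ∀ u ∈ U, y * u = u * y := by
  obtain ⟨M, hM⟩ := h
  intro u hu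
  have h1 : y ∈ M := (hM y).mpr ⟨hy, hyp⟩
  have h2 : u * y⁻¹ * u⁻¹ ∈ M := by
    rw [hM]
    refine ⟨Y.mul_mem (Y.mul_mem (hUY hu) (Y.inv_mem hy)) (Y.inv_mem (hUY hu)), ?_⟩
    rw [orderOf_conj, orderOf_inv]; exact hyp
  have h3 : y * u * y⁻¹ * u⁻¹ ∈ M := by
    have : y * u * y⁻¹ * u⁻¹ = y * (u * y⁻¹ * u⁻¹) := by group
    rw [this]; exact M.mul_mem h1 h2
  have h4 : y * u * y⁻¹ * u⁻¹ ∈ U := U.mul_mem (hyU u hu) (U.inv_mem hu)
  have h5 := eq_one_of_isP_of_coprime (isP_of_mem hU h4) ((hM _).mp h3).2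
  calc y * u = (y * u * y⁻¹ * u⁻¹) * (u * y) := by group
    _ = u * y := by rw [h5, one_mul]

/-- order of the subgroup of `p`-regular elements -/
theorem card_mul_card_of_pNilIn {G : Type*} [Group G] [Finite G] {p : ℕ} [Fact p.Prime]
    {Y M : Subgroup G} (hM : ∀ g, g ∈ M ↔ g ∈ Y ∧ (orderOf g).Coprime p) (P : Sylow p G)
    (hPY : (P : Subgroup G) ≤ Y) : Nat.card M * Nat.card (P : Subgroup G) = Nat.card Y := by
  have hMY : M ≤ Y := fun g hg => ((hM g).mp hg).1
  have hK : ∀ x : Y, x ∈ M.subgroupOf Y ↔ (orderOf x).Coprime p := by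
    intro x
    rw [Subgroup.mem_subgroupOf, hM, Subgroup.orderOf_coe]
    exact ⟨fun h => h.2, fun h => ⟨x.2, h⟩⟩
  obtain ⟨Q, N, hN, hc⟩ := hasNormalPComplement_of_pPrime_elements (M.subgroupOf Y) hK
  have hNK : N = M.subgroupOf Y := by
    ext x
    rw [mem_iff_coprime_of_normal_complement Q N hc, hK]
  have h1 := hc.card_mul
  have h2 : Nat.card (M.subgroupOf Y) = Nat.card M := by
    rw [← Subgroup.card_map_of_injective (Subgroup.subtype_injective Y),
      Subgroup.subgroupOf_map_subtype, inf_eq_left.mpr hMY]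
  have h3 : Nat.card (Q : Subgroup Y) = Nat.card (P : Subgroup G) := by
    have := (P.subtype hPY).card_eq_multiplicity
    rw [Q.card_eq_multiplicity, ← this]
    have h4 : ((P.subtype hPY : Sylow p Y) : Subgroup Y) = (P : Subgroup G).subgroupOf Y := rfl
    rw [h4, ← Subgroup.card_map_of_injective (Subgroup.subtype_injective Y),
      Subgroup.subgroupOf_map_subtype, inf_eq_left.mpr hPY]
  rw [hNK, h2, h3] at h1
  exact h1

/-- Burnside counting for a conjugation-invariant predicate -/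
theorem card_commPairs_pred {K : Type*} [Group K] [Finite K] (Pr : K → Prop)
    (hinv : ∀ g x, Pr x → Pr (g * x * g⁻¹)) :
    Nat.card {z : K × K // Pr z.1 ∧ Commute z.1 z.2} =
      Nat.card {C : ConjClasses K // ∃ x, Pr x ∧ ConjClasses.mk x = C} * Nat.card K := by
  let f : {z : K × K // Pr z.1 ∧ Commute z.1 z.2} →
      {C : ConjClasses K // ∃ x, Pr x ∧ ConjClasses.mk x = C} :=
    fun z => ⟨ConjClasses.mk z.1.1, z.1.1, z.2.1, rfl⟩
  apply card_eq_mul_of_fiber_eq f
  rintro ⟨C, x0, hx0, rfl⟩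
  rw [← card_class_pairs x0]
  refine Nat.card_congr
    { toFun := fun a => ⟨a.1.1, congrArg Subtype.val a.2, a.1.2.2⟩
      invFun := fun z => ⟨⟨z.1, ?_, z.2.2⟩, Subtype.ext z.2.1⟩
      left_inv := fun a => rfl
      right_inv := fun z => rfl }
  have h1 := ConjClasses.mk_eq_mk_iff_isConj.mp z.2.1
  obtain ⟨c, hc⟩ := isConj_iff.mp h1.symm
  rw [← hc]
  exact hinv c x0 hx0

/-- a `p`-element normalising a Sylow `p`-subgroup lies in it -/
theorem mem_sylow_of_mem_normalizer {G : Type*} [Group G] {p : ℕ} [Fact p.Prime] (P : Sylow p G)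
    {a : G} (ha : ∃ k : ℕ, orderOf a = p ^ k)
    (haN : a ∈ Subgroup.normalizer ((P : Subgroup G) : Set G)) : a ∈ P := by
  obtain ⟨k, hk⟩ := ha
  have h1 : IsPGroup p (Subgroup.zpowers a) :=
    IsPGroup.of_card (n := k) (by rw [Nat.card_zpowers, hk])
  have h2 := h1.inf_normalizer_sylow P
  exact (h2.le ⟨Subgroup.mem_zpowers a, haN⟩).2

/-- **Counting criterion.**  If the Sylow `p`-subgroups are abelian, centralisers of non-trivial
`p`-elements are `p`-nilpotent, and every `p`-regular element commutes with a non-trivial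
`p`-element, then `N(P) = C(P)`. -/
theorem normalizer_le_centralizer_of_count {G : Type*} [Group G] [Finite G] (p : ℕ)
    [Fact p.Prime] (hab : ∀ P : Sylow p G, ∀ a ∈ P, ∀ b ∈ P, a * b = b * a)
    (hcent : ∀ u : G, u ≠ 1 → (∃ k : ℕ, orderOf u = p ^ k) →
      PNilIn p (Subgroup.centralizer ({u} : Set G)))
    (hdiv : ∀ x : G, (orderOf x).Coprime p →
      ∃ u : G, u ≠ 1 ∧ (∃ k : ℕ, orderOf u = p ^ k) ∧ Commute u x)
    (P : Sylow p G) :
    Subgroup.normalizer ((P : Subgroup G) : Set G) ≤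
      Subgroup.centralizer ((P : Subgroup G) : Set G) := by
  classical
  have hp : p.Prime := Fact.out
  by_contra hcon
  obtain ⟨y₀, hy₀N, hy₀C⟩ := SetLike.not_le_iff_exists.mp hcon
  -- a p-regular element of the normaliser acting non-trivially
  obtain ⟨y, hyN, hyp, hyC⟩ : ∃ y, y ∈ Subgroup.normalizer ((P : Subgroup G) : Set G) ∧
      (orderOf y).Coprime p ∧ y ∉ Subgroup.centralizer ((P : Subgroup G) : Set G) := by
    obtain ⟨a, y, ha, hy, hay, haπ, hyπ⟩ :=
      exists_pi_split ({p} : Set ℕ) y₀ (orderOf_pos y₀).ne'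
    have hz : Subgroup.zpowers y₀ ≤ Subgroup.normalizer ((P : Subgroup G) : Set G) :=
      Subgroup.zpowers_le.mpr hy₀N
    refine ⟨y, hz hy, (isPiElt_compl_singleton_iff hp y).mp hyπ, ?_⟩
    intro hyC
    apply hy₀C
    have haP : a ∈ P := mem_sylow_of_mem_normalizer P
      ((isPiElt_singleton_iff hp a (orderOf_pos a).ne').mp haπ) (hz ha)
    have haC : a ∈ Subgroup.centralizer ((P : Subgroup G) : Set G) := by
      rw [Subgroup.mem_centralizer_iff]
      intro b hb
      exact hab P b hb a haP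
    rw [← hay]
    exact Subgroup.mul_mem _ haC hyC
  have hyconj : ∀ u ∈ P, y * u * y⁻¹ ∈ P := fun u hu =>
    (Subgroup.mem_normalizer_iff.mp hyN u).mp hu
  have hmove : ∀ u ∈ P, u ≠ 1 → y * u * y⁻¹ ≠ u := by
    intro u hu hu1 hfix
    apply hyC
    have hyY : y ∈ Subgroup.centralizer ({u} : Set G) := by
      rw [Subgroup.mem_centralizer_singleton_iff]
      calc y * u = (y * u * y⁻¹) * y := by group
        _ = u * y := by rw [hfix]
    have hPY : (P : Subgroup G) ≤ Subgroup.centralizer ({u} : Set G) := by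
      intro b hb
      rw [Subgroup.mem_centralizer_singleton_iff]
      exact hab P b hb u hu
    have := (hcent u hu1 (isP_of_mem P.isPGroup' hu)).commute (P : Subgroup G) P.isPGroup' hPY y
      hyY hyp hyconj
    rw [Subgroup.mem_centralizer_iff]
    intro b hb
    exact (this b hb).symm
  -- the counting
  let PP := {u : G // (∃ k : ℕ, orderOf u = p ^ k) ∧ u ≠ 1}
  let T := Σ u : PP, {z : G // (orderOf z).Coprime p ∧ Commute u.1 z}
  let U := Σ u : PP, {g : G // Commute u.1 g}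
  let CC := {C : ConjClasses G // ∃ x : G, ((∃ k : ℕ, orderOf x = p ^ k) ∧ x ≠ 1) ∧
    ConjClasses.mk x = C}
  haveI : Fintype PP := Fintype.ofFinite PP
  have hfib : ∀ u : PP, Nat.card {z : G // (orderOf z).Coprime p ∧ Commute u.1 z} *
      Nat.card (P : Subgroup G) = Nat.card {g : G // Commute u.1 g} := by
    intro u
    obtain ⟨M, hM⟩ := hcent u.1 u.2.2 u.2.1
    obtain ⟨P₁, hP₁⟩ := exists_sylow_of_isP u.2.1
    have hPY : (P₁ : Subgroup G) ≤ Subgroup.centralizer ({u.1} : Set G) := by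
      intro b hb
      rw [Subgroup.mem_centralizer_singleton_iff]
      exact hab P₁ b hb u.1 hP₁
    have h1 := card_mul_card_of_pNilIn hM P₁ hPY
    have h2 : Nat.card (P₁ : Subgroup G) = Nat.card (P : Subgroup G) := by
      rw [P₁.card_eq_multiplicity, P.card_eq_multiplicity]
    have h3 : Nat.card {z : G // (orderOf z).Coprime p ∧ Commute u.1 z} = Nat.card M := by
      apply Nat.card_congr
      apply Equiv.subtypeEquivRight
      intro z
      rw [hM, Subgroup.mem_centralizer_singleton_iff]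
      exact ⟨fun h => ⟨h.2.eq.symm, h.1⟩, fun h => ⟨h.2, h.1.symm⟩⟩
    have h4 : Nat.card {g : G // Commute u.1 g} =
        Nat.card (Subgroup.centralizer ({u.1} : Set G)) := by
      apply Nat.card_congr
      apply Equiv.subtypeEquivRight
      intro z
      rw [Subgroup.mem_centralizer_singleton_iff]
      exact ⟨fun h => h.eq.symm, fun h => h.symm⟩
    rw [h3, h4, ← h2, h1]
  have hTU : Nat.card T * Nat.card (P : Subgroup G) = Nat.card U := by
    rw [Nat.card_sigma, Nat.card_sigma, Finset.sum_mul]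
    exact Finset.sum_congr rfl fun u _ => hfib u
  have hU : Nat.card U = Nat.card CC * Nat.card G := by
    rw [← card_commPairs_pred (fun x : G => (∃ k : ℕ, orderOf x = p ^ k) ∧ x ≠ 1)]
    · refine Nat.card_congr
        { toFun := fun t => ⟨(t.1.1, t.2.1), t.1.2, t.2.2⟩
          invFun := fun z => ⟨⟨z.1.1, z.2.1⟩, ⟨z.1.2, z.2.2⟩⟩
          left_inv := fun t => rfl
          right_inv := fun z => rfl }
    · rintro g x ⟨h1, h2⟩
      refine ⟨by rwa [orderOf_conj], ?_⟩
      intro h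
      apply h2
      have : x = g⁻¹ * (g * x * g⁻¹) * g := by group
      rw [this, h]; group
  have hG : Nat.card G ≤ Nat.card T + Nat.card T := by
    rw [← Nat.card_sum]
    let L : T ⊕ T → G := fun t =>
      match t with
      | Sum.inl t => t.1.1 * t.2.1
      | Sum.inr t => t.2.1
    apply Nat.card_le_card_of_surjective L
    intro x
    obtain ⟨a, z, ha, hz, haz, haπ, hzπ⟩ := exists_pi_split ({p} : Set ℕ) x (orderOf_pos x).ne'
    have haP := (isPiElt_singleton_iff hp a (orderOf_pos a).ne').mp haπ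
    have hzP := (isPiElt_compl_singleton_iff hp z).mp hzπ
    have hcomm : Commute a z := by
      obtain ⟨i, rfl⟩ := ha
      obtain ⟨j, rfl⟩ := hz
      exact (Commute.refl x).zpow_zpow i j
    by_cases ha1 : a = 1
    · obtain ⟨u, hu1, huP, hux⟩ := hdiv x (by rw [← haz, ha1, one_mul]; exact hzP)
      exact ⟨Sum.inr ⟨⟨u, huP, hu1⟩, ⟨x, by rw [← haz, ha1, one_mul]; exact hzP, hux⟩⟩, rfl⟩
    · exact ⟨Sum.inl ⟨⟨a, haP, ha1⟩, ⟨z, hzP, hcomm⟩⟩, haz⟩
  have hCC : Nat.card CC * 2 + 1 ≤ Nat.card (P : Subgroup G) := by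
    let f : {u : (P : Subgroup G) // u ≠ 1} → CC := fun u =>
      ⟨ConjClasses.mk (u.1 : G), (u.1 : G), ⟨isP_of_mem P.isPGroup' u.1.2, fun h => u.2 (Subtype.ext h)⟩,
        rfl⟩
    have h1 : Nat.card CC * 2 ≤ Nat.card {u : (P : Subgroup G) // u ≠ 1} := by
      apply card_mul_le_of_le_fiber f
      rintro ⟨C, x, ⟨hxP, hx1⟩, rfl⟩
      obtain ⟨Q, hQ⟩ := exists_sylow_of_isP hxP
      obtain ⟨c, hc⟩ := MulAction.exists_smul_eq G P Q
      have h1 : x ∈ (c • P : Sylow p G) := hc ▸ hQ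
      have h2 : x ∈ MulAut.conj c • (P : Subgroup G) := h1
      obtain ⟨u, hu, hux⟩ := (mem_conj_smul_iff _ _ _).mp h2
      have hu1 : u ≠ 1 := by
        rintro rfl
        apply hx1
        rw [← hux]; group
      have hmk : ConjClasses.mk u = ConjClasses.mk x :=
        ConjClasses.mk_eq_mk_iff_isConj.mpr (isConj_iff.mpr ⟨c, hux⟩)
      have hu' : y * u * y⁻¹ ≠ 1 := by
        intro h
        apply hu1
        have : u = y⁻¹ * (y * u * y⁻¹) * y := by group
        rw [this, h]; group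
      have hmk' : ConjClasses.mk (y * u * y⁻¹) = ConjClasses.mk x := by
        rw [← hmk]
        exact ConjClasses.mk_eq_mk_iff_isConj.mpr (isConj_iff.mpr ⟨y, rfl⟩).symm
      have hnt : Nontrivial {a // f a = ⟨ConjClasses.mk x, x, ⟨hxP, hx1⟩, rfl⟩} := by
        refine ⟨⟨⟨⟨⟨u, hu⟩, fun h => hu1 (congrArg Subtype.val h)⟩, Subtype.ext hmk⟩,
          ⟨⟨⟨y * u * y⁻¹, hyconj u hu⟩, fun h => hu' (congrArg Subtype.val h)⟩, Subtype.ext hmk'⟩,
          ?_⟩⟩
        intro h
        have h3 : u = y * u * y⁻¹ := congrArg (fun t => ((t.1.1 : (P : Subgroup G)) : G)) h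
        exact hmove u hu hu1 h3.symm
      exact Finite.one_lt_card_iff_nontrivial.mpr hnt
    have h2 : Nat.card {u : (P : Subgroup G) // u ≠ 1} + 1 ≤ Nat.card (P : Subgroup G) := by
      rw [← Finite.card_option]
      let ι : Option {u : (P : Subgroup G) // u ≠ 1} → (P : Subgroup G) := fun o =>
        match o with
        | none => 1
        | some u => u.1
      apply Nat.card_le_card_of_injective ι
      rintro (_ | a) (_ | b) h
      · rfl
      · exact absurd (show (1 : (P : Subgroup G)) = b.1 from h).symm b.2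
      · exact absurd (show a.1 = (1 : (P : Subgroup G)) from h) a.2
      · have : a.1 = b.1 := h
        rw [Subtype.ext this]
    omega
  have hpos : 0 < Nat.card G := Nat.card_pos
  have h1 : Nat.card G * Nat.card (P : Subgroup G) ≤ Nat.card G * (Nat.card CC * 2) := by
    calc Nat.card G * Nat.card (P : Subgroup G)
        ≤ (Nat.card T + Nat.card T) * Nat.card (P : Subgroup G) := Nat.mul_le_mul_right _ hG
      _ = Nat.card G * (Nat.card CC * 2) := by
          rw [add_mul, hTU, hU]; ring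
  have h2 := Nat.le_of_mul_le_mul_left h1 hpos
  omega

end Cfsg.Agent.Lib.Helper72PNil
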