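import Mathlib
import Cfsg.Agent.Lib.Helper72PNil
import Cfsg.Agent.Lib.Helper72Idx

set_option autoImplicit false

universe u

namespace Cfsg.Agent.Lib.Helper72PNilA

open Cfsg.Agent.Lib.Helper72Pi Cfsg.Agent.Lib.Helper72Class Cfsg.Agent.Lib.Helper72PElt
  Cfsg.Agent.Lib.Helper72PiCount Cfsg.Agent.Lib.Helper72Cyclic Cfsg.Agent.Lib.Helper72Frob
  Cfsg.Agent.Lib.Helper72PNil Cfsg.Agent.Lib.Helper72Idx
open scoped Pointwise

/-- the `p`-regular elements form a subgroup (`p`-nilpotency) -/
def PNil (p : ℕ) (X : Type*) [Group X] : Prop :=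
  ∃ K : Subgroup X, ∀ x, x ∈ K ↔ (orderOf x).Coprime p

theorem pNilIn_of_pNil {G : Type*} [Group G] {p : ℕ} {Y : Subgroup G} (h : PNil p Y) :
    PNilIn p Y := by
  obtain ⟨K, hK⟩ := h
  refine ⟨K.map Y.subtype, fun g => ?_⟩
  constructor
  · rintro ⟨k, hk, rfl⟩
    refine ⟨k.2, ?_⟩
    have := (hK k).mp hk
    rwa [← Subgroup.orderOf_coe] at this
  · rintro ⟨hg, hgp⟩
    refine ⟨⟨g, hg⟩, (hK _).mpr ?_, rfl⟩
    rwa [← Subgroup.orderOf_coe]

theorem pNil_of_normalizer_le {G : Type*} [Group G] [Finite G] {p : ℕ} [Fact p.Prime]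
    (P : Sylow p G) (h : Subgroup.normalizer ((P : Subgroup G) : Set G) ≤
      Subgroup.centralizer ((P : Subgroup G) : Set G)) : PNil p G :=
  ⟨_, fun x => mem_iff_coprime_of_normal_complement P _
    (MonoidHom.ker_transferSylow_isComplement' P h) x⟩

/-- `p`-nilpotency lifts through a central `p`-subgroup -/
theorem pNil_of_quotient_central {G : Type*} [Group G] [Finite G] {p : ℕ} [Fact p.Prime]
    (Z : Subgroup G) [Z.Normal] (hZc : Z ≤ Subgroup.center G) (hZp : IsPGroup p Z)
    (h : PNil p (G ⧸ Z)) : PNil p G := by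
  have hp : p.Prime := Fact.out
  obtain ⟨Kb, hKb⟩ := h
  set K := Kb.comap (QuotientGroup.mk' Z) with hK
  have hZK : Z ≤ K := by
    intro z hz
    rw [hK, Subgroup.mem_comap, hKb]
    have : QuotientGroup.mk' Z z = 1 := (QuotientGroup.eq_one_iff z).mpr hz
    rw [this, orderOf_one]
    exact Nat.coprime_one_left p
  set Z' := Z.subgroupOf K with hZ'
  have hidx : ¬ p ∣ Z'.index := by
    intro hdvd
    obtain ⟨kb, hkb⟩ := exists_prime_orderOf_dvd_card' (G := K ⧸ Z') p hdvd
    obtain ⟨k, rfl⟩ := QuotientGroup.mk_surjective kb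
    have h1 : (orderOf (QuotientGroup.mk' Z (k : G))).Coprime p := (hKb _).mp k.2
    set m := orderOf (QuotientGroup.mk' Z (k : G)) with hm
    have h2 : (k : G) ^ m ∈ Z := by
      rw [← QuotientGroup.eq_one_iff, QuotientGroup.mk_pow]
      exact pow_orderOf_eq_one _
    have h3 : ((k : K ⧸ Z')) ^ m = 1 := by
      rw [← QuotientGroup.mk_pow, QuotientGroup.eq_one_iff, hZ', Subgroup.mem_subgroupOf]
      simpa using h2
    have h4 : p ∣ m := hkb ▸ orderOf_dvd_of_pow_eq_one h3
    exact (Nat.Prime.coprime_iff_not_dvd hp).mp h1.symm h4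
  obtain ⟨K₀, hK₀, _⟩ := exists_pPrime_subgroup (L := K) p (by
    intro y _ hdvd
    apply hidx
    refine hdvd.trans (Subgroup.index_dvd_of_le ?_)
    intro z hz
    rw [Subgroup.mem_centralizer_singleton_iff]
    apply Subtype.ext
    have hz' : (z : G) ∈ Z := by simpa [hZ', Subgroup.mem_subgroupOf] using hz
    exact ((Subgroup.mem_center_iff.mp (hZc hz')) (y : G)).symm)
  refine ⟨K₀.map K.subtype, fun x => ?_⟩
  constructor
  · rintro ⟨k, hk, rfl⟩
    have := (hK₀ k).mp hk
    rwa [← Subgroup.orderOf_coe] at this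
  · intro hx
    have hxK : x ∈ K := by
      rw [hK, Subgroup.mem_comap, hKb]
      exact Nat.Coprime.coprime_dvd_left (orderOf_map_dvd _ x) hx
    refine ⟨⟨x, hxK⟩, (hK₀ _).mpr ?_, rfl⟩
    rwa [← Subgroup.orderOf_coe]

/-- commutators inside Sylow `p`-subgroups are central if no class size is divisible by `p ^ 2` -/
theorem sylow_comm_mem_center {G : Type*} [Group G] [Finite G] (p : ℕ) [Fact p.Prime]
    (hsq : ∀ x : G, ¬ p ^ 2 ∣ (Subgroup.centralizer ({x} : Set G)).index) (P : Sylow p G) :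
    ∀ u ∈ P, ∀ v ∈ P, u * v * u⁻¹ * v⁻¹ ∈ Subgroup.center G := by
  set D : Set G := {d | ∃ u ∈ P, ∃ v ∈ P, d = u * v * u⁻¹ * v⁻¹} with hD
  have htop : Subgroup.centralizer D = ⊤ := by
    apply eq_top_of_conj_cover
    intro g
    obtain ⟨P₁, _, hP₁⟩ := exists_sylow_card_le p (Subgroup.centralizer ({g} : Set G)) ⊥
      IsPGroup.of_bot bot_le (hsq g)
    obtain ⟨_, hcomm, _⟩ := pow_comm_mem_of_card_le p (P₁ : Subgroup G) _ P₁.isPGroup' inf_le_left hP₁
    obtain ⟨a, ha⟩ := MulAction.exists_smul_eq G P P₁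
    have hmem : ∀ u ∈ P, a * u * a⁻¹ ∈ (P₁ : Subgroup G) := by
      intro u hu
      have : a * u * a⁻¹ ∈ MulAut.conj a • (P : Subgroup G) :=
        (mem_conj_smul_iff _ _ _).mpr ⟨u, hu, rfl⟩
      rw [← ha]; exact this
    refine ⟨a⁻¹, ?_⟩
    rw [Subgroup.mem_centralizer_iff]
    rintro d ⟨u, hu, v, hv, rfl⟩
    have h1 := (Subgroup.mem_inf.mp (hcomm _ (hmem u hu) _ (hmem v hv))).2
    rw [Subgroup.mem_centralizer_singleton_iff] at h1
    have h2 : a * u * a⁻¹ * (a * v * a⁻¹) * (a * u * a⁻¹)⁻¹ * (a * v * a⁻¹)⁻¹ =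
        a * (u * v * u⁻¹ * v⁻¹) * a⁻¹ := by group
    rw [h2] at h1
    calc u * v * u⁻¹ * v⁻¹ * (a⁻¹ * g * a⁻¹⁻¹)
        = a⁻¹ * (a * (u * v * u⁻¹ * v⁻¹) * a⁻¹ * g) * a := by group
      _ = a⁻¹ * (g * (a * (u * v * u⁻¹ * v⁻¹) * a⁻¹)) * a := by rw [h1]
      _ = a⁻¹ * g * a⁻¹⁻¹ * (u * v * u⁻¹ * v⁻¹) := by group
  intro u hu v hv
  rw [Subgroup.mem_center_iff]
  intro g
  have hg : g ∈ Subgroup.centralizer D := htop ▸ Subgroup.mem_top g
  exact ((Subgroup.mem_centralizer_iff.mp hg) _ ⟨u, hu, v, hv, rfl⟩).symm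

/-- **Cossey–Wang type theorem** (elementary proof): if `p` is at most every prime divisor of `|G|`
and no class size is divisible by `p ^ 2`, then `G` is `p`-nilpotent. -/
theorem pNil_of_sq_not_dvd (p : ℕ) [Fact p.Prime] : ∀ (n : ℕ) (G : Type u) [Group G] [Finite G],
    Nat.card G = n → (∀ r : ℕ, r.Prime → r ∣ Nat.card G → p ≤ r) →
    (∀ x : G, ¬ p ^ 2 ∣ (Subgroup.centralizer ({x} : Set G)).index) → PNil p G := by
  have hp : p.Prime := Fact.out
  intro n
  induction n using Nat.strong_induction_on with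
  | _ n ih =>
  intro G _ _ hn hmin hsq
  have hcen := sylow_comm_mem_center p hsq
  by_cases hz : ∃ z ∈ Subgroup.center G, z ≠ 1 ∧ ∃ k : ℕ, orderOf z = p ^ k
  · obtain ⟨z, hzc, hz1, k, hk⟩ := hz
    set Z := Subgroup.zpowers z with hZ
    have hZc : Z ≤ Subgroup.center G := Subgroup.zpowers_le.mpr hzc
    haveI : Z.Normal := ⟨fun a ha g => by
      have := Subgroup.mem_center_iff.mp (hZc ha) g
      rw [this]; simpa using ha⟩
    have hZp : IsPGroup p Z := IsPGroup.of_card (n := k) (by rw [hZ, Nat.card_zpowers, hk])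
    apply pNil_of_quotient_central Z hZc hZp
    have hcard : Nat.card (G ⧸ Z) * Nat.card Z = Nat.card G := by
      rw [mul_comm]; exact Subgroup.card_mul_index Z
    have hZ1 : 1 < Nat.card Z := by
      rw [hZ, Nat.card_zpowers]
      have h0 := orderOf_pos z
      have h1 : orderOf z ≠ 1 := fun h => hz1 (orderOf_eq_one_iff.mp h)
      omega
    have hlt : Nat.card (G ⧸ Z) < n := by
      rw [← hn, ← hcard]
      exact lt_mul_of_one_lt_right Nat.card_pos hZ1
    refine ih _ hlt (G ⧸ Z) rfl ?_ ?_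
    · intro r hr hrd
      exact hmin r hr (hrd.trans ⟨_, hcard.symm⟩)
    · intro x hx
      obtain ⟨g, rfl⟩ := QuotientGroup.mk_surjective x
      exact hsq g (hx.trans (idx_quot_dvd Z g))
  · push_neg at hz
    have hab : ∀ P : Sylow p G, ∀ a ∈ P, ∀ b ∈ P, a * b = b * a := by
      intro P a ha b hb
      have h1 := hcen P a ha b hb
      have h2 : a * b * a⁻¹ * b⁻¹ ∈ (P : Subgroup G) :=
        (P : Subgroup G).mul_mem ((P : Subgroup G).mul_mem ((P : Subgroup G).mul_mem ha hb)
          ((P : Subgroup G).inv_mem ha)) ((P : Subgroup G).inv_mem hb)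
      have h3 : a * b * a⁻¹ * b⁻¹ = 1 := by
        by_contra hne
        obtain ⟨k, hk⟩ := isP_of_mem P.isPGroup' h2
        exact hz _ h1 hne k hk
      calc a * b = (a * b * a⁻¹ * b⁻¹) * (b * a) := by group
        _ = b * a := by rw [h3, one_mul]
    have hG0 : Nat.card G ≠ 0 := Nat.card_pos.ne'
    have hcent : ∀ u : G, u ≠ 1 → (∃ k : ℕ, orderOf u = p ^ k) →
        PNilIn p (Subgroup.centralizer ({u} : Set G)) := by
      intro u hu1 huP
      set Y := Subgroup.centralizer ({u} : Set G) with hY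
      apply pNilIn_of_pNil
      have hYtop : Y ≠ ⊤ := by
        intro htop
        obtain ⟨k, hk⟩ := huP
        refine hz u ?_ hu1 k hk
        rw [Subgroup.mem_center_iff]
        intro g
        have : g ∈ Y := htop ▸ Subgroup.mem_top g
        exact Subgroup.mem_centralizer_singleton_iff.mp this
      have hlt : Nat.card Y < n := by
        rw [← hn]
        by_contra hcon
        push_neg at hcon
        exact hYtop (Subgroup.eq_top_of_card_eq Y (le_antisymm (Subgroup.card_le_card_group Y) hcon))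
      refine ih _ hlt Y rfl ?_ ?_
      · intro r hr hrd
        exact hmin r hr (hrd.trans (Subgroup.card_subgroup_dvd_card Y))
      · intro x hx
        rw [idx_subtype] at hx
        have hux : u ∈ Subgroup.centralizer ({(x : G)} : Set G) := by
          rw [Subgroup.mem_centralizer_singleton_iff]
          exact (Subgroup.mem_centralizer_singleton_iff.mp x.2).symm
        obtain ⟨k, hk⟩ := huP
        have hUp : IsPGroup p (Subgroup.zpowers u) :=
          IsPGroup.of_card (n := k) (by rw [Nat.card_zpowers, hk])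
        obtain ⟨P₂, hUP, hP₂⟩ := exists_sylow_card_le p (Subgroup.centralizer ({(x : G)} : Set G))
          (Subgroup.zpowers u) hUp (Subgroup.zpowers_le.mpr hux) (hsq x)
        have huP₂ : u ∈ P₂ := hUP (Subgroup.mem_zpowers u)
        set S := (P₂ : Subgroup G) ⊓ Subgroup.centralizer ({(x : G)} : Set G) with hS
        have hSY : S ≤ Subgroup.centralizer ({(x : G)} : Set G) ⊓ Y := by
          intro s hs
          refine Subgroup.mem_inf.mpr ⟨hs.2, ?_⟩
          rw [hY, Subgroup.mem_centralizer_singleton_iff]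
          exact hab P₂ s hs.1 u huP₂
        obtain ⟨s, hs⟩ := IsPGroup.iff_card.mp (P₂.isPGroup'.to_le (inf_le_left : S ≤ P₂))
        have h1 : (Subgroup.centralizer ({(x : G)} : Set G) ⊓ Y).relIndex Y *
            Nat.card (Subgroup.centralizer ({(x : G)} : Set G) ⊓ Y : Subgroup G) = Nat.card Y := by
          rw [← Subgroup.relIndex_bot_left, ← Subgroup.relIndex_bot_left, mul_comm]
          exact Subgroup.relIndex_mul_relIndex _ _ _ bot_le inf_le_right
        rw [Subgroup.inf_relIndex_right] at h1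
        have h2 : p ^ (s + 2) ∣ Nat.card G := by
          refine Dvd.dvd.trans ?_ (Subgroup.card_subgroup_dvd_card Y)
          rw [← h1, pow_add, mul_comm]
          exact Nat.mul_dvd_mul hx (hs ▸ Subgroup.card_dvd_of_le hSY)
        have h3 := (Nat.Prime.pow_dvd_iff_le_factorization hp hG0).mp h2
        rw [P₂.card_eq_multiplicity, hs, ← pow_succ'] at hP₂
        have h4 := (Nat.pow_le_pow_iff_right hp.one_lt).mp hP₂
        omega
    by_cases hpG : p ∣ Nat.card G
    · let P : Sylow p G := default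
      apply pNil_of_normalizer_le P
      have hminFac : (Nat.card G).minFac = p := by
        apply le_antisymm (Nat.minFac_le_of_dvd hp.two_le hpG)
        apply hmin _ (Nat.minFac_prime _) (Nat.minFac_dvd _)
        intro h1
        rw [h1] at hpG
        exact hp.one_lt.ne' (Nat.dvd_one.mp hpG)
      have hv : 1 ≤ (Nat.card G).factorization p :=
        (Nat.Prime.pow_dvd_iff_le_factorization hp hG0).mp (by rwa [pow_one])
      rcases Nat.eq_or_lt_of_le hv with hv1 | hv2
      · have hPc : Nat.card (P : Subgroup G) = p := by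
          rw [P.card_eq_multiplicity, ← hv1, pow_one]
        exact IsCyclic.normalizer_le_centralizer hminFac (isCyclic_of_prime_card hPc)
      · apply normalizer_le_centralizer_of_count p hab hcent
        intro x _
        obtain ⟨P₁, _, hP₁⟩ := exists_sylow_card_le p (Subgroup.centralizer ({x} : Set G)) ⊥
          IsPGroup.of_bot bot_le (hsq x)
        have h1 : p ^ 2 ≤ Nat.card (P₁ : Subgroup G) := by
          rw [P₁.card_eq_multiplicity]
          exact Nat.pow_le_pow_right hp.pos hv2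
        have h2 : 1 < Nat.card ((P₁ : Subgroup G) ⊓ Subgroup.centralizer ({x} : Set G) :
            Subgroup G) := by
          by_contra hcon
          push_neg at hcon
          have h3 : p * Nat.card ((P₁ : Subgroup G) ⊓ Subgroup.centralizer ({x} : Set G) :
            Subgroup G) ≤ p * 1 := Nat.mul_le_mul_left _ hcon
          have h4 : p < p ^ 2 := by
            calc p = p ^ 1 := (pow_one p).symm
              _ < p ^ 2 := Nat.pow_lt_pow_right hp.one_lt (by norm_num)
          omega
        obtain ⟨⟨u, hu⟩, hu1⟩ := Subgroup.ne_bot_iff_exists_ne_one.mp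
          (Subgroup.one_lt_card_iff_ne_bot _ |>.mp h2)
        refine ⟨u, fun h => hu1 (Subtype.ext h), isP_of_mem P₁.isPGroup' hu.1, ?_⟩
        exact Subgroup.mem_centralizer_singleton_iff.mp hu.2
    · refine ⟨⊤, fun x => ⟨fun _ => ?_, fun _ => Subgroup.mem_top x⟩⟩
      rw [Nat.coprime_comm, Nat.Prime.coprime_iff_not_dvd hp]
      exact fun h => hpG (h.trans (orderOf_dvd_natCard x))

end Cfsg.Agent.Lib.Helper72PNilA
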