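import Mathlib
import Cfsg.Agent.Lib.Helper72PNil

set_option autoImplicit false

namespace Cfsg.Agent.Lib.Helper72Refl

open Cfsg.Agent.Lib.Helper72PNil Cfsg.Agent.Lib.Helper72PElt

variable {V : Type*} [CommGroup V]

/-- `v ↦ α v / v` -/
def delta (α : MulAut V) : V →* V where
  toFun v := α v * v⁻¹
  map_one' := by simp
  map_mul' a b := by
    rw [map_mul, mul_inv]
    exact mul_mul_mul_comm _ _ _ _

theorem delta_apply (α : MulAut V) (v : V) : delta α v = α v * v⁻¹ := rfl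

theorem mem_ker_delta (α : MulAut V) (v : V) : v ∈ (delta α).ker ↔ α v = v := by
  rw [MonoidHom.mem_ker, delta_apply, mul_inv_eq_one]

theorem isP_of_isPGroup {q : ℕ} [Fact q.Prime] (hV : IsPGroup q V) (d : V) :
    ∃ k : ℕ, orderOf d = q ^ k := by
  obtain ⟨k, hk⟩ := hV d
  obtain ⟨m, _, hm⟩ := (Nat.dvd_prime_pow Fact.out).mp (orderOf_dvd_of_pow_eq_one hk)
  exact ⟨m, hm⟩

/-- stability: a `q'`-automorphism trivial on `W` and on `V / W` is trivial -/
theorem eq_one_of_stab {q : ℕ} [Fact q.Prime] (hV : IsPGroup q V) (α : MulAut V)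
    (hα : (orderOf α).Coprime q) (W : Subgroup V) (h1 : ∀ w ∈ W, α w = w)
    (h2 : ∀ v, α v * v⁻¹ ∈ W) : α = 1 := by
  have key : ∀ (n : ℕ) (v : V), (α ^ n) v = (α v * v⁻¹) ^ n * v := by
    intro n
    induction n with
    | zero => intro v; simp
    | succ n ih =>
      intro v
      rw [pow_succ', MulAut.mul_apply, ih, map_mul, map_pow, h1 _ (h2 v), pow_succ]
      simp [mul_assoc]
  ext v
  have h3 := key (orderOf α) v
  rw [pow_orderOf_eq_one, MulAut.one_apply] at h3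
  have h4 : (α v * v⁻¹) ^ orderOf α = 1 := by
    have : (α v * v⁻¹) ^ orderOf α * v = 1 * v := by rw [← h3, one_mul]
    exact mul_right_cancel this
  have h5 : (orderOf (α v * v⁻¹)).Coprime q :=
    Nat.Coprime.coprime_dvd_left (orderOf_dvd_of_pow_eq_one h4) hα
  have h6 := eq_one_of_isP_of_coprime (isP_of_isPGroup hV _) h5
  rw [MulAut.one_apply]
  exact mul_inv_eq_one.mp h6

theorem mem_powers_of_card_prime {q : ℕ} [Fact q.Prime] (A : Subgroup V) (hA : Nat.card A = q)
    {m : V} (hm : m ∈ A) (hm1 : m ≠ 1) {x : V} (hx : x ∈ A) : ∃ i : ℕ, m ^ i = x := by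
  have h := mem_powers_of_prime_card (G := A) hA (g := ⟨m, hm⟩) (g' := ⟨x, hx⟩)
    (fun h => hm1 (congrArg Subtype.val h))
  obtain ⟨i, hi⟩ := h
  exact ⟨i, by simpa using congrArg Subtype.val hi⟩

theorem eq_of_card_prime {q : ℕ} [Fact q.Prime] (A B : Subgroup V) (hA : Nat.card A = q)
    (hB : Nat.card B = q) {m : V} (hmA : m ∈ A) (hmB : m ∈ B) (hm1 : m ≠ 1) : A = B := by
  apply le_antisymm
  · intro x hx
    obtain ⟨i, rfl⟩ := mem_powers_of_card_prime A hA hmA hm1 hx
    exact B.pow_mem hmB i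
  · intro x hx
    obtain ⟨i, rfl⟩ := mem_powers_of_card_prime B hB hmB hm1 hx
    exact A.pow_mem hmA i

/-- **Reflection lemma**: a `q'`-group of automorphisms of a finite abelian `q`-group in which every
element has a fixed-point subgroup of index at most `q` moves everything inside one subgroup of
order at most `q`. -/
theorem exists_common_center [Finite V] {q : ℕ} [Fact q.Prime] (hV : IsPGroup q V)
    (𝒜 : Subgroup (MulAut V)) (hcop : ∀ α ∈ 𝒜, (orderOf α).Coprime q)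
    (hidx : ∀ α ∈ 𝒜, (delta α).ker.index ≤ q) :
    ∃ T : Subgroup V, Nat.card T ≤ q ∧ ∀ α ∈ 𝒜, ∀ v, α v * v⁻¹ ∈ T := by
  have hq : q.Prime := Fact.out
  -- step 0
  have hindex : ∀ α ∈ 𝒜, α ≠ 1 → (delta α).ker.index = q := by
    intro α hα hα1
    obtain ⟨k, hk⟩ := IsPGroup.iff_card.mp hV
    have h1 : (delta α).ker.index ∣ q ^ k := hk ▸ Subgroup.index_dvd_card _
    obtain ⟨j, _, hj⟩ := (Nat.dvd_prime_pow hq).mp h1
    have hj0 : j ≠ 0 := by
      rintro rfl
      rw [pow_zero, Subgroup.index_eq_one] at hj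
      apply hα1
      ext v
      have : v ∈ (delta α).ker := hj ▸ Subgroup.mem_top v
      rw [MulAut.one_apply]
      exact (mem_ker_delta α v).mp this
    have hj1 : j ≤ 1 := by
      by_contra hcon
      push_neg at hcon
      have h2 : q ^ 2 ≤ q ^ j := Nat.pow_le_pow_right hq.pos hcon
      have h3 : q < q ^ 2 := by
        calc q = q ^ 1 := (pow_one q).symm
          _ < q ^ 2 := Nat.pow_lt_pow_right hq.one_lt (by norm_num)
      have h4 := hidx α hα
      omega
    have : j = 1 := by omega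
    rw [hj, this, pow_one]
  have hrange : ∀ α ∈ 𝒜, α ≠ 1 → Nat.card (delta α).range = q := by
    intro α hα hα1
    rw [← Subgroup.index_ker, hindex α hα hα1]
  -- step 1
  have hstep1 : ∀ α ∈ 𝒜, α ≠ 1 → ∀ m ∈ (delta α).range, α m = m → m = 1 := by
    intro α hα hα1 m hm hfix
    by_contra hm1
    apply hα1
    apply eq_one_of_stab hV α (hcop α hα) (delta α).range
    · intro w hw
      obtain ⟨i, rfl⟩ := mem_powers_of_card_prime _ (hrange α hα hα1) hm hm1 hw
      rw [map_pow, hfix]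
    · intro v
      exact ⟨v, rfl⟩
  by_cases hex : ∃ α ∈ 𝒜, α ≠ 1
  swap
  · push_neg at hex
    refine ⟨⊥, by rw [Subgroup.card_bot]; exact hq.one_lt.le, fun α hα v => ?_⟩
    rw [hex α hα, MulAut.one_apply, mul_inv_cancel]
    exact Subgroup.one_mem _
  obtain ⟨α, hα, hα1⟩ := hex
  refine ⟨(delta α).range, (hrange α hα hα1).le, ?_⟩
  intro β hβ v
  by_cases hβ1 : β = 1
  · rw [hβ1, MulAut.one_apply, mul_inv_cancel]
    exact Subgroup.one_mem _
  suffices h : (delta β).range = (delta α).range by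
    rw [← h]; exact ⟨v, rfl⟩
  by_contra hne
  have hint : ∀ m, m ∈ (delta α).range → m ∈ (delta β).range → m = 1 := by
    intro m h1 h2
    by_contra hm1
    exact hne (eq_of_card_prime _ _ (hrange β hβ hβ1) (hrange α hα hα1) h2 h1 hm1)
  -- step 2
  have hstep2 : (delta (α * β)).ker ≤ (delta α).ker ⊓ (delta β).ker := by
    intro v hv
    rw [mem_ker_delta, MulAut.mul_apply] at hv
    have h1 : β v * v⁻¹ ∈ (delta β).range := ⟨v, rfl⟩
    have h2 : β v * v⁻¹ ∈ (delta α).range := by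
      have : β v * v⁻¹ = (delta α (β v))⁻¹ := by
        rw [delta_apply, hv, mul_inv_rev, inv_inv]
      rw [this]
      exact Subgroup.inv_mem _ ⟨β v, rfl⟩
    have h3 : β v = v := mul_inv_eq_one.mp (hint _ h2 h1)
    refine ⟨(mem_ker_delta α v).mpr ?_, (mem_ker_delta β v).mpr h3⟩
    rwa [h3] at hv
  -- step 3: equal fixed subgroups
  have hinf : ((delta α).ker ⊓ (delta β).ker).index ≤ q :=
    (Nat.le_of_dvd (Nat.pos_of_ne_zero Subgroup.index_ne_zero_of_finite)
      (Subgroup.index_dvd_of_le hstep2)).trans (hidx _ (𝒜.mul_mem hα hβ))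
  have hle : ∀ γ ∈ 𝒜, γ ≠ 1 → (delta α).ker ⊓ (delta β).ker ≤ (delta γ).ker →
      (delta γ).ker ≤ (delta α).ker ⊓ (delta β).ker := by
    intro γ hγ hγ1 hle
    have h1 := Subgroup.card_mul_index (delta γ).ker
    have h2 := Subgroup.card_mul_index ((delta α).ker ⊓ (delta β).ker)
    rw [hindex γ hγ hγ1] at h1
    have h3 : Nat.card (delta γ).ker ≤ Nat.card ((delta α).ker ⊓ (delta β).ker : Subgroup V) := by
      have h4 : Nat.card (delta γ).ker * q ≤
          Nat.card ((delta α).ker ⊓ (delta β).ker : Subgroup V) * q := by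
        rw [h1, ← h2]
        exact Nat.mul_le_mul_left _ hinf
      exact Nat.le_of_mul_le_mul_right h4 hq.pos
    exact (Subgroup.eq_of_le_of_card_ge hle h3).ge
  have hαβ : ∀ w, α w = w ↔ β w = w := by
    intro w
    constructor
    · intro h
      exact (mem_ker_delta β w).mp (hle α hα hα1 inf_le_left ((mem_ker_delta α w).mpr h)).2
    · intro h
      exact (mem_ker_delta α w).mp (hle β hβ hβ1 inf_le_right ((mem_ker_delta β w).mpr h)).1
  set W := (delta α).ker with hW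
  have hWα : ∀ w ∈ W, α w = w := fun w hw => (mem_ker_delta α w).mp hw
  have hWβ : ∀ w ∈ W, β w = w := fun w hw => (hαβ w).mp (hWα w hw)
  -- power maps modulo W
  obtain ⟨v₀, hv₀⟩ : ∃ v₀, v₀ ∉ W := by
    by_contra hcon
    push_neg at hcon
    apply hα1
    ext v
    rw [MulAut.one_apply]
    exact hWα v (hcon v)
  have hgen : ∀ v : V, ∃ i : ℕ, ∃ w ∈ W, v = v₀ ^ i * w := by
    intro v
    have hcard : Nat.card (V ⧸ W) = q := hindex α hα hα1
    have hne1 : (v₀ : V ⧸ W) ≠ 1 := fun h => hv₀ ((QuotientGroup.eq_one_iff v₀).mp h)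
    obtain ⟨i, hi⟩ := mem_powers_of_prime_card hcard (g' := (v : V ⧸ W)) hne1
    refine ⟨i, (v₀ ^ i)⁻¹ * v, ?_, by group⟩
    apply QuotientGroup.eq.mp
    simpa using hi
  have hpow : ∀ γ : MulAut V, (∀ w ∈ W, γ w = w) → ∃ a : ℕ, ∀ v, ∃ w ∈ W, γ v = v ^ a * w := by
    intro γ hγ
    obtain ⟨a, w₁, hw₁, ha⟩ := hgen (γ v₀)
    refine ⟨a, fun v => ?_⟩
    obtain ⟨i, w, hw, rfl⟩ := hgen v
    refine ⟨w₁ ^ i * w * (w ^ a)⁻¹, W.mul_mem (W.mul_mem (W.pow_mem hw₁ i) hw)
      (W.inv_mem (W.pow_mem hw a)), ?_⟩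
    rw [map_mul, map_pow, hγ w hw, ha, mul_pow, mul_pow, ← pow_mul, ← pow_mul, mul_comm a i]
    have : v₀ ^ (i * a) * w ^ a * (w₁ ^ i * w * (w ^ a)⁻¹) =
        v₀ ^ (i * a) * w₁ ^ i * w * (w ^ a * (w ^ a)⁻¹) := by
      simp only [mul_assoc, mul_comm, mul_left_comm]
    rw [this, mul_inv_cancel, mul_one]
  obtain ⟨a, ha⟩ := hpow α hWα
  obtain ⟨b, hb⟩ := hpow β hWβ
  have hcomm : α * β = β * α := by
    have hγ : (β * α)⁻¹ * (α * β) = 1 := by
      apply eq_one_of_stab hV _ (hcop _ (𝒜.mul_mem (𝒜.inv_mem (𝒜.mul_mem hβ hα))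
        (𝒜.mul_mem hα hβ))) W
      · intro w hw
        rw [MulAut.mul_apply, MulAut.mul_apply, hWβ w hw, hWα w hw, MulAut.inv_apply,
          MulEquiv.symm_apply_eq, MulAut.mul_apply, hWα w hw, hWβ w hw]
      · intro v
        obtain ⟨w₁, hw₁, h1⟩ := hb v
        obtain ⟨w₂, hw₂, h2⟩ := ha (β v)
        obtain ⟨w₃, hw₃, h3⟩ := ha v
        obtain ⟨w₄, hw₄, h4⟩ := hb (α v)
        set d := w₁ ^ a * w₂ * (w₃ ^ b * w₄)⁻¹ with hd
        have hdW : d ∈ W := W.mul_mem (W.mul_mem (W.pow_mem hw₁ a) hw₂)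
          (W.inv_mem (W.mul_mem (W.pow_mem hw₃ b) hw₄))
        have h5 : α (β v) = β (α v) * d := by
          rw [h2, h4, h1, h3, mul_pow, mul_pow, ← pow_mul, ← pow_mul, mul_comm b a, hd]
          have : v ^ (a * b) * w₃ ^ b * w₄ * (w₁ ^ a * w₂ * (w₃ ^ b * w₄)⁻¹) =
              v ^ (a * b) * w₁ ^ a * w₂ * ((w₃ ^ b * w₄) * (w₃ ^ b * w₄)⁻¹) := by
            simp only [mul_assoc, mul_comm, mul_left_comm]
          rw [this, mul_inv_cancel, mul_one]
        have h6 : ((β * α)⁻¹ * (α * β)) v = v * d := by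
          rw [MulAut.mul_apply, MulAut.mul_apply, h5, MulAut.inv_apply, MulEquiv.symm_apply_eq,
            map_mul, MulAut.mul_apply, MulAut.mul_apply, hWα d hdW, hWβ d hdW]
        rw [h6, mul_comm v d, mul_inv_cancel_right]
        exact hdW
    calc α * β = (β * α) * ((β * α)⁻¹ * (α * β)) := by group
      _ = β * α := by rw [hγ, mul_one]
  -- final contradiction
  apply hα1
  ext v
  rw [MulAut.one_apply]
  have hm : delta α v ∈ (delta α).range := ⟨v, rfl⟩
  have h1 : β (delta α v) = delta α (β v) := by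
    rw [delta_apply, delta_apply, map_mul, map_inv]
    have : β (α v) = α (β v) := by
      rw [← MulAut.mul_apply, ← MulAut.mul_apply, hcomm]
    rw [this]
  have h2 : β (delta α v) * (delta α v)⁻¹ = 1 := by
    apply hint
    · rw [h1]
      exact Subgroup.mul_mem _ ⟨β v, rfl⟩ (Subgroup.inv_mem _ hm)
    · exact ⟨delta α v, rfl⟩
  have h3 : α (delta α v) = delta α v := (hαβ _).mpr (mul_inv_eq_one.mp h2)
  have h4 := hstep1 α hα hα1 _ hm h3
  exact mul_inv_eq_one.mp h4

end Cfsg.Agent.Lib.Helper72Refl
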