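import Mathlib
import Cfsg.Prelude.Def_Local
import Cfsg.Agent.Lib.Helper38PSolv
import Cfsg.Agent.Lib.Helper1Coprime

set_option autoImplicit false

/-! Residual operators `O^p`, `O^{p'}` on subgroups and groups whose maximal subgroups are
`p`-nilpotent or of prime index (p-length at most two). -/

namespace Cfsg.Agent.Lib.Helper72Res

open Subgroup

universe u

section basic

variable {G : Type*} [Group G]

/-- subgroup generated by the elements of `H` whose order satisfies `P` -/
def rr (P : ℕ → Prop) (H : Subgroup G) : Subgroup G :=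
  closure {x | x ∈ H ∧ P (orderOf x)}

theorem rr_le (P : ℕ → Prop) (H : Subgroup G) : rr P H ≤ H := by
  rw [rr, closure_le]; intro x hx; exact hx.1

theorem rr_mono (P : ℕ → Prop) {H K : Subgroup G} (h : H ≤ K) : rr P H ≤ rr P K :=
  closure_mono (fun _ hx => ⟨h hx.1, hx.2⟩)

theorem mem_rr {P : ℕ → Prop} {H : Subgroup G} {x : G} (hx : x ∈ H) (hP : P (orderOf x)) :
    x ∈ rr P H :=
  subset_closure ⟨hx, hP⟩

theorem rr_le_of {P : ℕ → Prop} {H K : Subgroup G} (h : ∀ x ∈ H, P (orderOf x) → x ∈ K) :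
    rr P H ≤ K := by
  rw [rr, closure_le]; intro x hx; exact h x hx.1 hx.2

theorem rr_normal (P : ℕ → Prop) (H : Subgroup G) (hH : H.Normal) : (rr P H).Normal := by
  refine ⟨fun n hn g => ?_⟩
  induction hn using closure_induction with
  | mem x hx =>
    refine subset_closure ⟨hH.conj_mem x hx.1 g, ?_⟩
    have : orderOf (g * x * g⁻¹) = orderOf x := (MulAut.conj g).orderOf_eq x
    rw [this]; exact hx.2
  | one => simp
  | mul x y _ _ hx hy =>
    have : g * (x * y) * g⁻¹ = (g * x * g⁻¹) * (g * y * g⁻¹) := by group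
    rw [this]; exact mul_mem hx hy
  | inv x _ hx =>
    have : g * x⁻¹ * g⁻¹ = (g * x * g⁻¹)⁻¹ := by group
    rw [this]; exact inv_mem hx

theorem map_rr_le {G' : Type*} [Group G'] (P : ℕ → Prop) (hP : ∀ a b, a ∣ b → P b → P a)
    (φ : G →* G') (H : Subgroup G) : (rr P H).map φ ≤ rr P (H.map φ) := by
  rw [rr, MonoidHom.map_closure, closure_le]
  rintro _ ⟨x, hx, rfl⟩
  exact mem_rr (mem_map_of_mem φ hx.1) (hP _ _ (orderOf_map_dvd φ x) hx.2)

/-- `O^p(H)` -/
def rp (p : ℕ) (H : Subgroup G) : Subgroup G := rr (fun n => ¬ p ∣ n) H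

/-- `O^{p'}(H)` -/
def rq (p : ℕ) (H : Subgroup G) : Subgroup G := rr (fun n => ∃ k : ℕ, n = p ^ k) H

theorem rp_le (p : ℕ) (H : Subgroup G) : rp p H ≤ H := rr_le _ H
theorem rq_le (p : ℕ) (H : Subgroup G) : rq p H ≤ H := rr_le _ H
theorem rp_mono (p : ℕ) {H K : Subgroup G} (h : H ≤ K) : rp p H ≤ rp p K := rr_mono _ h
theorem rq_mono (p : ℕ) {H K : Subgroup G} (h : H ≤ K) : rq p H ≤ rq p K := rr_mono _ h
theorem rp_normal (p : ℕ) (H : Subgroup G) (hH : H.Normal) : (rp p H).Normal := rr_normal _ H hH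
theorem rq_normal (p : ℕ) (H : Subgroup G) (hH : H.Normal) : (rq p H).Normal := rr_normal _ H hH

theorem map_rp_le {G' : Type*} [Group G'] (p : ℕ) (φ : G →* G') (H : Subgroup G) :
    (rp p H).map φ ≤ rp p (H.map φ) :=
  map_rr_le _ (fun _ _ hab hb h => hb (h.trans hab)) φ H

theorem map_rq_le {G' : Type*} [Group G'] (p : ℕ) [hp : Fact p.Prime] (φ : G →* G')
    (H : Subgroup G) : (rq p H).map φ ≤ rq p (H.map φ) := by
  refine map_rr_le _ ?_ φ H
  rintro a b hab ⟨k, rfl⟩
  obtain ⟨j, _, hj⟩ := (Nat.dvd_prime_pow hp.out).1 hab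
  exact ⟨j, hj⟩

theorem not_dvd_relIndex_rq (p : ℕ) [hp : Fact p.Prime] [Finite G] (H : Subgroup G) :
    ¬ p ∣ (rq p H).relIndex H := by
  let S : Sylow p H := default
  have hle : (S : Subgroup H) ≤ (rq p H).subgroupOf H := by
    intro x hx
    rw [mem_subgroupOf]
    apply mem_rr x.2
    obtain ⟨k, hk⟩ := (IsPGroup.iff_orderOf.1 S.isPGroup') ⟨x, hx⟩
    refine ⟨k, ?_⟩
    rw [← hk, Subgroup.orderOf_mk, Subgroup.orderOf_coe]
  intro hdvd
  exact S.not_dvd_index (hdvd.trans (index_dvd_of_le hle))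

theorem relIndex_rp (p : ℕ) [hp : Fact p.Prime] [Finite G] (H : Subgroup G) :
    ∃ k : ℕ, (rp p H).relIndex H = p ^ k := by
  refine ⟨_, Nat.eq_prime_pow_of_unique_prime_dvd (p := p) ?_ ?_⟩
  · exact Subgroup.index_ne_zero_of_finite
  intro q hq hdvd
  by_contra hne
  have := Fact.mk hq
  let S : Sylow q H := default
  have hle : (S : Subgroup H) ≤ (rp p H).subgroupOf H := by
    intro x hx
    rw [mem_subgroupOf]
    apply mem_rr x.2
    obtain ⟨k, hk⟩ := (IsPGroup.iff_orderOf.1 S.isPGroup') ⟨x, hx⟩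
    rw [Subgroup.orderOf_mk] at hk
    rw [Subgroup.orderOf_coe, hk]
    intro h
    exact hne ((Nat.prime_dvd_prime_iff_eq hp.out hq).1 (hp.out.dvd_of_dvd_pow h)).symm
  exact S.not_dvd_index (hdvd.trans (index_dvd_of_le hle))

theorem rp_eq_bot_of_isPGroup {p : ℕ} [hp : Fact p.Prime] {N H : Subgroup G} (hN : IsPGroup p N)
    (h : H ≤ N) : rp p H = ⊥ := by
  rw [eq_bot_iff]
  apply rr_le_of
  intro x hx hpx
  obtain ⟨k, hk⟩ := (IsPGroup.iff_orderOf.1 hN) ⟨x, h hx⟩
  rw [Subgroup.orderOf_mk] at hk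
  rw [mem_bot, ← orderOf_eq_one_iff, hk]
  rcases Nat.eq_zero_or_pos k with rfl | hk0
  · simp
  · exact absurd (hk ▸ dvd_pow_self p hk0.ne') hpx

theorem mem_normalizer_of_conj_mem [Finite G] {T : Subgroup G} {g : G}
    (h : ∀ t ∈ T, g * t * g⁻¹ ∈ T) : g ∈ normalizer (T : Set G) := by
  have hle : T.map (MulAut.conj g).toMonoidHom ≤ T := by
    rintro _ ⟨t, ht, rfl⟩
    exact h t ht
  have heq : T.map (MulAut.conj g).toMonoidHom = T := by
    apply Subgroup.eq_of_le_of_card_ge hle
    rw [Subgroup.card_map_of_injective (MulAut.conj g).injective]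
  rw [mem_normalizer_iff]
  intro t
  constructor
  · exact h t
  · intro ht
    rw [← heq] at ht
    obtain ⟨s, hs, hst⟩ := ht
    have : s = t := (MulAut.conj g).injective hst
    exact this ▸ hs

theorem mem_of_coprime_index {L : Subgroup G} [L.Normal] {x : G}
    (h : (L.index).Coprime (orderOf x)) : x ∈ L := by
  obtain ⟨m, hm⟩ := exists_pow_eq_self_of_coprime h
  rw [← hm]
  exact pow_mem (L.pow_index_mem x) m

theorem isCoatom_comap {G' : Type*} [Group G'] (φ : G →* G') (hφ : Function.Surjective φ)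
    {M : Subgroup G'} (hM : IsCoatom M) : IsCoatom (M.comap φ) := by
  constructor
  · intro h
    apply hM.1
    rw [← map_comap_eq_self_of_surjective hφ M, h, ← MonoidHom.range_eq_map,
      MonoidHom.range_eq_top.2 hφ]
  · intro L hL
    have h1 : M ≤ L.map φ := by
      rw [← map_comap_eq_self_of_surjective hφ M]; exact map_mono hL.le
    have hker : φ.ker ≤ L := le_trans (by
      intro x hx; rw [mem_comap, MonoidHom.mem_ker.1 hx]; exact one_mem _) hL.le
    have h2 : L.map φ = ⊤ := by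
      apply hM.2
      refine lt_of_le_of_ne h1 ?_
      intro h
      apply hL.ne
      rw [h, comap_map_eq_self hker]
    rw [← comap_map_eq_self hker, h2, comap_top]

end basic

section main

/-- the hypothesis on maximal subgroups -/
def Hmax (p : ℕ) (G : Type*) [Group G] : Prop :=
  ∀ M : Subgroup G, IsCoatom M →
    (∃ K : Subgroup ↥M, K.Normal ∧ ¬ p ∣ Nat.card K ∧ ∃ k : ℕ, K.index = p ^ k) ∨ (M.index).Prime

theorem Hmax_of_surjective {p : ℕ} [hp : Fact p.Prime] {G G' : Type*} [Group G] [Group G']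
    (φ : G →* G') (hφ : Function.Surjective φ) (h : Hmax p G) : Hmax p G' := by
  intro M hM
  rcases h (M.comap φ) (isCoatom_comap φ hφ hM) with ⟨K, hKn, hKc, k, hk⟩ | hpr
  · left
    have hψ : Function.Surjective (φ.subgroupComap M) :=
      φ.subgroupComap_surjective_of_surjective M hφ
    refine ⟨K.map (φ.subgroupComap M), hKn.map _ hψ, ?_, ?_⟩
    · intro hd
      exact hKc (hd.trans (card_map_dvd K _))
    · have := index_map_dvd K hψ
      rw [hk] at this
      obtain ⟨j, _, hj⟩ := (Nat.dvd_prime_pow hp.out).1 this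
      exact ⟨j, hj⟩
  · right
    rwa [index_comap_of_surjective M hφ] at hpr

variable {G : Type*} [Group G]

/-- the word `O^{p'} O^p O^{p'} O^p (O^{p'})` -/
def W (p : ℕ) (b : Bool) (H : Subgroup G) : Subgroup G :=
  rq p (rp p (rq p (rp p (cond b (rq p H) H))))

theorem W_mono (p : ℕ) (b : Bool) {H K : Subgroup G} (h : H ≤ K) : W p b H ≤ W p b K := by
  unfold W
  refine rq_mono p (rp_mono p (rq_mono p (rp_mono p ?_)))
  cases b
  · exact h
  · exact rq_mono p h

theorem map_W_le {G' : Type*} [Group G'] (p : ℕ) [hp : Fact p.Prime] (b : Bool) (φ : G →* G')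
    (H : Subgroup G) : (W p b H).map φ ≤ W p b (H.map φ) := by
  unfold W
  refine (map_rq_le p φ _).trans (rq_mono p ?_)
  refine (map_rp_le p φ _).trans (rp_mono p ?_)
  refine (map_rq_le p φ _).trans (rq_mono p ?_)
  refine (map_rp_le p φ _).trans (rp_mono p ?_)
  cases b
  · exact le_rfl
  · exact map_rq_le p φ _

theorem le_centralizer_of_min [Finite G] {p : ℕ} [hp : Fact p.Prime] {N : Subgroup G}
    (hNn : N.Normal) (hNp : IsPGroup p N)
    (hmin : ∀ K : Subgroup G, K.Normal → K ≠ ⊥ → N ≤ K) : N ≤ centralizer (N : Set G) := by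
  rw [← commutator_eq_bot_iff_le_centralizer]
  by_contra hne
  have hle : N ≤ ⁅N, N⁆ := hmin _ inferInstance hne
  have hN1 : Nontrivial N := by
    rw [Subgroup.nontrivial_iff_ne_bot]
    rintro rfl
    apply hne
    rw [eq_bot_iff]
    exact commutator_le_left ⊥ ⊥
  have hnil : Group.IsNilpotent N := hNp.isNilpotent
  have hlt : commutator N < ⊤ := Group.IsSolvable.commutator_lt_top_of_nontrivial N
  apply hlt.ne
  rw [eq_top_iff]
  intro x _
  have hmap : (commutator N).map N.subtype = ⁅N, N⁆ := by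
    rw [commutator_def, map_commutator, ← MonoidHom.range_eq_map, N.range_subtype]
  have hx : (x : G) ∈ (commutator N).map N.subtype := by rw [hmap]; exact hle x.2
  obtain ⟨y, hy, hyx⟩ := hx
  have : y = x := Subtype.ext hyx
  exact this ▸ hy


theorem caseA [Finite G] {p : ℕ} [hp : Fact p.Prime] {N X : Subgroup G} (hNn : N.Normal)
    (hXn : X.Normal) (hNX : N ≤ X) (hNp : IsPGroup p N) (hidx : ¬ p ∣ N.relIndex X)
    (hΦ : ∀ M : Subgroup G, IsCoatom M → N ≤ M) :
    ∃ T : Subgroup G, T.Normal ∧ ¬ p ∣ Nat.card T ∧ N ⊔ T = X := by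
  have hn' : (N.subgroupOf X).Normal := hNn.subgroupOf X
  obtain ⟨a, ha⟩ := IsPGroup.iff_card.1 hNp
  have hcardN' : Nat.card (N.subgroupOf X) = p ^ a := by
    rw [Nat.card_congr (subgroupOfEquivOfLe hNX).toEquiv, ha]
  have hcop : (Nat.card (N.subgroupOf X)).Coprime (N.subgroupOf X).index := by
    rw [hcardN']
    exact Nat.Coprime.pow_left _ ((Nat.Prime.coprime_iff_not_dvd hp.out).2 hidx)
  obtain ⟨T, hT⟩ := exists_left_complement'_of_coprime hcop
  set T₀ : Subgroup G := T.map X.subtype with hT₀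
  have hcardT : Nat.card T₀ = N.relIndex X := by
    rw [hT₀, card_map_of_injective X.subtype_injective, ← hT.index_eq_card]; rfl
  have hsup : N ⊔ T₀ = X := by
    have h1 := hT.sup_eq_top
    have h2 := congrArg (Subgroup.map X.subtype) h1
    rw [Subgroup.map_sup, map_subgroupOf_eq_of_le hNX, ← MonoidHom.range_eq_map, X.range_subtype] at h2
    rw [sup_comm]; exact h2
  have hT₀X : T₀ ≤ X := hsup ▸ le_sup_right
  have hcop2 : (Nat.card T₀).Coprime (Nat.card N) := by
    rw [hcardT, ha]
    exact (Nat.Coprime.pow_left _ ((Nat.Prime.coprime_iff_not_dvd hp.out).2 hidx)).symm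
  have hnil : Group.IsNilpotent N := hNp.isNilpotent
  have hfr : N ⊔ normalizer (T₀ : Set G) = ⊤ := by
    rw [eq_top_iff]
    intro g _
    have hB : T₀.map (MulAut.conj g).toMonoidHom ≤ N ⊔ T₀ := by
      rw [hsup]
      rintro _ ⟨t, ht, rfl⟩
      exact hXn.conj_mem t (hT₀X ht) g
    obtain ⟨u, hu, hub⟩ := Cfsg.Agent.Lib.Helper1Coprime.sz_rel (U := N) (A := T₀)
      (B := T₀.map (MulAut.conj g).toMonoidHom)
      (by rw [normalizer_eq_top_iff.2 hNn]; exact le_top) hcop2 (Or.inr inferInstance) hB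
      (card_map_of_injective (MulAut.conj g).injective)
    have hug : u * g ∈ normalizer (T₀ : Set G) := by
      apply mem_normalizer_of_conj_mem
      intro t ht
      have := hub _ (mem_map_of_mem (MulAut.conj g).toMonoidHom ht)
      have e : u * g * t * (u * g)⁻¹ = u * ((MulAut.conj g).toMonoidHom t) * u⁻¹ := by
        simp [MulAut.conj_apply, mul_assoc]
      rw [e]; exact this
    have e : g = u⁻¹ * (u * g) := by group
    rw [e]
    exact mul_mem (mem_sup_left (inv_mem hu)) (mem_sup_right hug)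
  have hTn : T₀.Normal := by
    rw [← normalizer_eq_top_iff]
    rcases eq_top_or_exists_le_coatom (normalizer (T₀ : Set G)) with h | ⟨M, hM, hle⟩
    · exact h
    · exfalso
      apply hM.1
      rw [eq_top_iff, ← hfr]
      exact sup_le (hΦ M hM) hle
  exact ⟨T₀, hTn, by rw [hcardT]; exact hidx, hsup⟩


theorem caseBa [Finite G] {p : ℕ} [hp : Fact p.Prime] {N M : Subgroup G} (hNn : N.Normal)
    (hsup : M ⊔ N = ⊤) (hNp : IsPGroup p N) (K : Subgroup M) (hKn : K.Normal)
    (hKc : ¬ p ∣ Nat.card K) (k : ℕ) (hk : K.index = p ^ k) (Z : Subgroup G) :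
    rp p (rq p (rp p Z)) = ⊥ := by
  set φ : ↥M →* G ⧸ N := (QuotientGroup.mk' N).comp M.subtype with hφ
  have hsurj : Function.Surjective φ := by
    intro q
    obtain ⟨g, rfl⟩ := QuotientGroup.mk'_surjective N q
    have hg : g ∈ M ⊔ N := hsup ▸ mem_top g
    obtain ⟨m, hm, n, hn, rfl⟩ := mem_sup_of_normal_right.1 hg
    refine ⟨⟨m, hm⟩, ?_⟩
    simp only [hφ, MonoidHom.comp_apply, QuotientGroup.mk'_apply, Subgroup.subtype_apply]
    exact (QuotientGroup.mk_mul_of_mem m hn).symm
  set L : Subgroup G := (K.map φ).comap (QuotientGroup.mk' N) with hL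
  have hLn : L.Normal := (hKn.map φ hsurj).comap _
  have hLi : L.index ∣ p ^ k := by
    rw [hL, index_comap_of_surjective _ (QuotientGroup.mk'_surjective N), ← hk]
    exact index_map_dvd K hsurj
  have h1 : rp p Z ≤ L := by
    apply rr_le_of
    intro x _ hx
    apply mem_of_coprime_index
    exact Nat.Coprime.coprime_dvd_left hLi
      (Nat.Coprime.pow_left _ ((Nat.Prime.coprime_iff_not_dvd hp.out).2 hx))
  have h2 : rq p (rp p Z) ≤ N := by
    apply rr_le_of
    rintro y hy ⟨j, hj⟩
    have hyL : QuotientGroup.mk' N y ∈ K.map φ := h1 hy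
    have hd1 : orderOf (QuotientGroup.mk' N y) ∣ Nat.card K :=
      (Subgroup.orderOf_dvd_natCard _ hyL).trans (card_map_dvd K φ)
    have hd2 : orderOf (QuotientGroup.mk' N y) ∣ p ^ j := hj ▸ orderOf_map_dvd _ y
    have hc : (p ^ j).Coprime (Nat.card K) :=
      Nat.Coprime.pow_left _ ((Nat.Prime.coprime_iff_not_dvd hp.out).2 hKc)
    have h1' : orderOf (QuotientGroup.mk' N y) = 1 := Nat.eq_one_of_dvd_coprimes hc hd2 hd1
    rw [orderOf_eq_one_iff] at h1'
    exact (QuotientGroup.eq_one_iff y).1 h1'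
  exact rp_eq_bot_of_isPGroup hNp h2


theorem normal_of_sup_eq_top {N M D : Subgroup G} (h : N ⊔ M = ⊤)
    (hN : N ≤ normalizer (D : Set G)) (hM : M ≤ normalizer (D : Set G)) : D.Normal :=
  normalizer_eq_top_iff.1 (top_le_iff.1 (h ▸ sup_le hN hM))

theorem mem_centralizer_of_card_prime [Finite G] {p : ℕ} [hp : Fact p.Prime] {N : Subgroup G}
    [hNn : N.Normal] (hc : Nat.card N = p) {x : G} (hx : (orderOf x).Coprime (p - 1)) :
    x ∈ centralizer (N : Set G) := by
  have hcyc : IsCyclic N := isCyclic_of_prime_card hc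
  have hcard : Nat.card (MulAut N) = p - 1 := by
    rw [IsCyclic.card_mulAut, hc, Nat.totient_prime hp.out]
  have h1 : orderOf (MulAut.conjNormal x : MulAut N) ∣ p - 1 := hcard ▸ orderOf_dvd_natCard _
  have h2 : orderOf (MulAut.conjNormal x : MulAut N) ∣ orderOf x := orderOf_map_dvd _ x
  have h3 : orderOf (MulAut.conjNormal x : MulAut N) = 1 := Nat.eq_one_of_dvd_coprimes hx h2 h1
  rw [orderOf_eq_one_iff] at h3
  rw [mem_centralizer_iff]
  intro n hn
  have h4 : (MulAut.conjNormal x : MulAut N) ⟨n, hn⟩ = ⟨n, hn⟩ := by rw [h3]; rfl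
  have h5 := congrArg Subtype.val h4
  rw [MulAut.conjNormal_apply] at h5
  simp only at h5
  calc n * x = (x * n * x⁻¹) * x := by rw [h5]
    _ = x * n := by group

theorem caseBb [Finite G] {p : ℕ} [hp : Fact p.Prime] {N M : Subgroup G} (hNn : N.Normal)
    (hsup : N ⊔ M = ⊤) (hNp : IsPGroup p N) (hN1 : N ≠ ⊥)
    (hab : N ≤ centralizer (N : Set G))
    (hmin : ∀ K : Subgroup G, K.Normal → K ≠ ⊥ → N ≤ K) (hNM : ¬ N ≤ M) (hpr : M.index.Prime) :
    ∀ x : G, (orderOf x).Coprime (p - 1) → x ∈ N := by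
  have hinf : N ⊓ M = ⊥ := by
    by_contra hne
    have hn : (N ⊓ M).Normal := by
      apply normal_of_sup_eq_top hsup
      · intro n hn
        apply mem_normalizer_of_conj_mem
        intro t ht
        have : n * t * n⁻¹ = t := by
          have := (mem_centralizer_iff.1 (hab hn)) t ht.1
          rw [← this]; group
        rw [this]; exact ht
      · intro m hm
        apply mem_normalizer_of_conj_mem
        intro t ht
        exact ⟨hNn.conj_mem t ht.1 m, M.mul_mem (M.mul_mem hm ht.2) (M.inv_mem hm)⟩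
    exact hNM ((hmin _ hn hne).trans inf_le_right)
  have hcompl : IsComplement' N M := by
    apply isComplement'_of_disjoint_and_mul_eq_univ (disjoint_iff.2 hinf)
    rw [← normal_mul, hsup]; rfl
  have hcard : Nat.card N = p := by
    have h1 : Nat.card N = M.index := hcompl.index_eq_card.symm
    obtain ⟨a, ha⟩ := IsPGroup.iff_card.1 hNp
    have h2 : p ∣ Nat.card N := by
      rw [ha]
      apply dvd_pow_self
      rintro rfl
      apply hN1
      rw [pow_zero] at ha
      exact (Subgroup.card_eq_one).1 ha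
    rw [h1] at h2 ⊢
    exact ((Nat.prime_dvd_prime_iff_eq hp.out hpr).1 h2).symm
  have hD : centralizer (N : Set G) ⊓ M = ⊥ := by
    by_contra hne
    have hn : (centralizer (N : Set G) ⊓ M).Normal := by
      apply normal_of_sup_eq_top hsup
      · intro n hn
        apply mem_normalizer_of_conj_mem
        intro t ht
        have : n * t * n⁻¹ = t := by
          have := (mem_centralizer_iff.1 ht.1) n hn
          rw [this]; group
        rw [this]; exact ht
      · intro m hm
        apply mem_normalizer_of_conj_mem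
        intro t ht
        have hcn : (centralizer (N : Set G)).Normal := inferInstance
        exact ⟨hcn.conj_mem t ht.1 m, M.mul_mem (M.mul_mem hm ht.2) (M.inv_mem hm)⟩
    exact hNM ((hmin _ hn hne).trans inf_le_right)
  intro x hx
  have hxc : x ∈ centralizer (N : Set G) := mem_centralizer_of_card_prime hcard hx
  have hxs : x ∈ N ⊔ M := hsup ▸ mem_top x
  obtain ⟨n, hn, m, hm, rfl⟩ := mem_sup_of_normal_left.1 hxs
  have hmc : m ∈ centralizer (N : Set G) := by
    have : m = n⁻¹ * (n * m) := by group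
    rw [this]
    exact mul_mem (inv_mem (hab hn)) hxc
  have : m ∈ centralizer (N : Set G) ⊓ M := ⟨hmc, hm⟩
  rw [hD, mem_bot] at this
  rw [this, mul_one]; exact hn


theorem W_normal (p : ℕ) (b : Bool) (H : Subgroup G) (hH : H.Normal) : (W p b H).Normal := by
  unfold W
  refine rq_normal p _ (rp_normal p _ (rq_normal p _ (rp_normal p _ ?_)))
  cases b
  · exact hH
  · exact rq_normal p _ hH

theorem W_top_eq_bot_aux (p : ℕ) [hp : Fact p.Prime] (b : Bool) (hb : b = false → p = 2) :
    ∀ (n : ℕ) (G : Type u) [Group G] [Finite G], Nat.card G = n → Cfsg.IsPSolvable p G →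
      Hmax p G → W p b (⊤ : Subgroup G) = ⊥ := by
  intro n
  induction n using Nat.strong_induction_on with
  | _ n ih =>
  intro G _ _ hn hG hmax
  obtain ⟨Z, hZ⟩ : ∃ Z : Subgroup G, Z = cond b (rq p ⊤) ⊤ := ⟨_, rfl⟩
  obtain ⟨X, hX⟩ : ∃ X : Subgroup G, X = rp p (rq p (rp p Z)) := ⟨_, rfl⟩
  obtain ⟨N, hNX⟩ : ∃ N : Subgroup G, N = rq p X := ⟨_, rfl⟩
  have hN : N = W p b ⊤ := by rw [hNX, hX, hZ]; rfl
  rw [← hN]
  by_contra hR
  have hNn : N.Normal := hN ▸ W_normal p b ⊤ inferInstance
  have hmin : ∀ K : Subgroup G, K.Normal → K ≠ ⊥ → N ≤ K := by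
    intro K hKn hK
    have h1 : 1 < Nat.card K := (Subgroup.one_lt_card_iff_ne_bot K).2 hK
    have h2 := K.card_mul_index
    have h3 : 0 < K.index := Nat.pos_of_ne_zero index_ne_zero_of_finite
    have hlt : Nat.card (G ⧸ K) < n := by
      change K.index < n
      rw [← hn, ← h2]
      nlinarith
    have h4 := ih _ hlt (G ⧸ K) rfl (Cfsg.Agent.Lib.Helper38PSolv.isPSolvable_quotient K hG)
      (Hmax_of_surjective (QuotientGroup.mk' K) (QuotientGroup.mk'_surjective K) hmax)
    have h5 : N.map (QuotientGroup.mk' K) ≤ ⊥ := by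
      rw [← h4, hN]
      exact (map_W_le p b _ _).trans (W_mono p b le_top)
    rw [map_le_iff_le_comap] at h5
    intro x hx
    have := h5 hx
    rw [mem_comap, mem_bot] at this
    exact (QuotientGroup.eq_one_iff x).1 this
  have hnt : Nontrivial G := by
    rcases subsingleton_or_nontrivial G with h | h
    · exact absurd (Subsingleton.elim _ _) hR
    · exact h
  obtain ⟨K0, hK0n, hK0, hK0p⟩ := Cfsg.Agent.Lib.Helper38PSolv.exists_normal_of_isPSolvable hG
  have hNK0 := hmin K0 hK0n hK0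
  have hZn : Z.Normal := by
    by_cases hbb : b = true
    · rw [hZ, hbb, cond_true]
      exact rq_normal p _ inferInstance
    · rw [Bool.not_eq_true] at hbb
      rw [hZ, hbb, cond_false]
      infer_instance
  have hXn : X.Normal := hX ▸ rp_normal p _ (rq_normal p _ (rp_normal p _ hZn))
  rcases hK0p with hK0p | hK0p
  swap
  · -- `p'` case
    apply hR
    rw [eq_bot_iff, hNX]
    apply rr_le_of
    rintro x hx ⟨k, hk⟩
    have hxN : x ∈ N := by rw [hNX]; exact mem_rr hx ⟨k, hk⟩
    have hd : orderOf x ∣ Nat.card K0 := Subgroup.orderOf_dvd_natCard _ (hNK0 hxN)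
    have hc : (orderOf x).Coprime (Nat.card K0) := by
      rw [hk]; exact Nat.Coprime.pow_left _ hK0p.symm
    rw [mem_bot, ← orderOf_eq_one_iff]
    exact Nat.eq_one_of_dvd_coprimes hc dvd_rfl hd
  have hNp : IsPGroup p N := hK0p.to_le hNK0
  have hab := le_centralizer_of_min hNn hNp hmin
  by_cases hΦ : ∀ M : Subgroup G, IsCoatom M → N ≤ M
  · obtain ⟨T, hTn, hTc, hTs⟩ := caseA hNn hXn (hNX ▸ rq_le p X) hNp
      (by rw [hNX]; exact not_dvd_relIndex_rq p X) hΦ
    have hT : T = ⊥ := by
      by_contra hT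
      have h1 := hmin T hTn hT
      obtain ⟨a, ha⟩ := IsPGroup.iff_card.1 hNp
      apply hTc
      refine dvd_trans ?_ (Subgroup.card_dvd_of_le h1)
      rw [ha]
      apply dvd_pow_self
      rintro rfl
      rw [pow_zero] at ha
      exact hR ((Subgroup.card_eq_one).1 ha)
    rw [hT, sup_bot_eq] at hTs
    have hX0 : X = ⊥ := by
      rw [eq_bot_iff, hX]
      apply rr_le_of
      intro x hx hpx
      have hxX : x ∈ X := by rw [hX]; exact mem_rr hx hpx
      have h0 : rp p N = ⊥ := rp_eq_bot_of_isPGroup hNp le_rfl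
      rw [← h0]
      exact mem_rr (hTs ▸ hxX) hpx
    apply hR
    rw [hTs, hX0]
  · push Not at hΦ
    obtain ⟨M, hM, hNM⟩ := hΦ
    have hsup : N ⊔ M = ⊤ := by
      apply hM.2
      refine lt_of_le_of_ne le_sup_right ?_
      intro h
      exact hNM (h ▸ le_sup_left)
    rcases hmax M hM with ⟨K, hKn, hKc, k, hk⟩ | hpr
    · have := caseBa hNn (sup_comm N M ▸ hsup) hNp K hKn hKc k hk Z
      apply hR
      rw [eq_bot_iff, hNX, ← this, ← hX]
      exact rq_le p X
    · have key := caseBb hNn hsup hNp hR hab hmin hNM hpr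
      have hZN : Z ≤ N := by
        by_cases hbb : b = true
        · rw [hZ, hbb, cond_true]
          apply rr_le_of
          rintro x _ ⟨k, hk⟩
          apply key
          rw [hk]
          apply Nat.Coprime.pow_left
          exact (Nat.coprime_self_sub_right hp.out.one_le).2 (Nat.coprime_one_right p)
        · rw [Bool.not_eq_true] at hbb
          have hp2 := hb hbb
          intro x _
          apply key
          rw [hp2]; simp
      have h0 : rp p Z = ⊥ := rp_eq_bot_of_isPGroup hNp hZN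
      apply hR
      rw [eq_bot_iff, ← h0, hNX]
      exact (rq_le p X).trans (hX ▸ ((rp_le p _).trans (rq_le p _)))

theorem W_top_eq_bot {G : Type u} [Group G] [Finite G] (p : ℕ) [hp : Fact p.Prime] (b : Bool)
    (hb : b = false → p = 2) (hG : Cfsg.IsPSolvable p G) (hmax : Hmax p G) :
    W p b (⊤ : Subgroup G) = ⊥ :=
  W_top_eq_bot_aux p b hb _ G rfl hG hmax

end main

end Cfsg.Agent.Lib.Helper72Res
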