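import Mathlib
import Cfsg.Agent.Lib.Helper20SNDefs

set_option autoImplicit false

namespace Cfsg.Agent.Lib.Helper72SNForm

open Cfsg.Agent.Lib.Helper20SNDefs

theorem comm_form {F : Type*} [Field F] (x y : Matrix (Fin 2) (Fin 2) F)
    (hx : ∀ c : F, x ≠ c • (1 : Matrix (Fin 2) (Fin 2) F)) (hxy : x * y = y * x) :
    ∃ a b : F, y = a • (1 : Matrix (Fin 2) (Fin 2) F) + b • x := by
  have e00 := congrFun (congrFun hxy 0) 0
  have e01 := congrFun (congrFun hxy 0) 1
  have e10 := congrFun (congrFun hxy 1) 0
  simp only [Matrix.mul_apply, Fin.sum_univ_two] at e00 e01 e10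
  by_cases hq : x 0 1 = 0
  · by_cases hr : x 1 0 = 0
    · have hps : x 0 0 - x 1 1 ≠ 0 := by
        intro h
        apply hx (x 0 0)
        ext i j
        fin_cases i <;> fin_cases j <;> simp [hq, hr]
        linear_combination -h
      have h01 : y 0 1 = 0 := by
        have : (x 0 0 - x 1 1) * y 0 1 = 0 := by
          rw [hq] at e01
          linear_combination e01
        exact (mul_eq_zero.1 this).resolve_left hps
      have h10 : y 1 0 = 0 := by
        have : (x 0 0 - x 1 1) * y 1 0 = 0 := by
          rw [hr] at e10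
          linear_combination -e10
        exact (mul_eq_zero.1 this).resolve_left hps
      refine ⟨y 0 0 - (y 0 0 - y 1 1) / (x 0 0 - x 1 1) * x 0 0,
        (y 0 0 - y 1 1) / (x 0 0 - x 1 1), ?_⟩
      ext i j
      fin_cases i <;> fin_cases j <;> simp [hq, hr, h01, h10]
      field_simp
      ring
    · refine ⟨y 0 0 - y 1 0 / x 1 0 * x 0 0, y 1 0 / x 1 0, ?_⟩
      ext i j
      fin_cases i <;> fin_cases j <;> simp
      · field_simp
        linear_combination -e00
      · field_simp
      · field_simp
        linear_combination -e10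
  · refine ⟨y 0 0 - y 0 1 / x 0 1 * x 0 0, y 0 1 / x 0 1, ?_⟩
    ext i j
    fin_cases i <;> fin_cases j <;> simp
    · field_simp
    · field_simp
      linear_combination e00
    · field_simp
      linear_combination e01

end Cfsg.Agent.Lib.Helper72SNForm
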