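import Mathlib
import Cfsg.Agent.Lib.Helper20SNDefs
import Cfsg.Agent.Lib.Helper72SNForm

set_option autoImplicit false

namespace Cfsg.Agent.Lib.Helper72SNScal

open Cfsg.Agent.Lib.Helper20SNDefs Cfsg.Agent.Lib.Helper72SNForm

local notation "SL2" F => Matrix.SpecialLinearGroup (Fin 2) F

theorem not_scalar {F : Type*} [Field F] [CharP F 2] (x : SL2 F) (hx : x ≠ 1) :
    ∀ c : F, (x : Matrix (Fin 2) (Fin 2) F) ≠ c • (1 : Matrix (Fin 2) (Fin 2) F) := by
  intro c hc
  have hdet := x.2
  rw [hc, Matrix.det_fin_two] at hdet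
  simp at hdet
  have h1 : (c + 1) * (c + 1) = 0 := by
    have h2 : (2 : F) = 0 := CharP.cast_eq_zero F 2
    linear_combination hdet + c * h2 + h2
  have h3 : c + 1 = 0 := by
    rcases mul_eq_zero.1 h1 with h | h <;> exact h
  have h4 : c = 1 := by
    have h2 : (2 : F) = 0 := CharP.cast_eq_zero F 2
    linear_combination h3 - h2
  apply hx
  apply Subtype.ext
  rw [hc, h4, one_smul]
  rfl

theorem sl2_CA (F : Type*) [Field F] [CharP F 2] : CA (SL2 F) := by
  intro x hx a b ha hb
  have hns := not_scalar x hx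
  have ha' : (x : Matrix (Fin 2) (Fin 2) F) * (a : Matrix (Fin 2) (Fin 2) F)
      = (a : Matrix (Fin 2) (Fin 2) F) * (x : Matrix (Fin 2) (Fin 2) F) := by
    have := congrArg Subtype.val ha
    simpa using this.symm
  have hb' : (x : Matrix (Fin 2) (Fin 2) F) * (b : Matrix (Fin 2) (Fin 2) F)
      = (b : Matrix (Fin 2) (Fin 2) F) * (x : Matrix (Fin 2) (Fin 2) F) := by
    have := congrArg Subtype.val hb
    simpa using this.symm
  obtain ⟨a1, a2, ha3⟩ := comm_form _ _ hns ha'
  obtain ⟨b1, b2, hb3⟩ := comm_form _ _ hns hb'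
  apply Subtype.ext
  change (a : Matrix (Fin 2) (Fin 2) F) * (b : Matrix (Fin 2) (Fin 2) F)
      = (b : Matrix (Fin 2) (Fin 2) F) * (a : Matrix (Fin 2) (Fin 2) F)
  rw [ha3, hb3]
  simp only [add_mul, mul_add, smul_mul_assoc, mul_smul_comm, one_mul, mul_one]
  module

theorem trace_eq_zero_iff {F : Type*} [Field F] [CharP F 2] (x : SL2 F) :
    (x : Matrix (Fin 2) (Fin 2) F).trace = 0 ↔ x ^ 2 = 1 := by
  have h2 : (2 : F) = 0 := CharP.cast_eq_zero F 2
  have hdet := x.2
  rw [Matrix.det_fin_two] at hdet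
  rw [Matrix.trace_fin_two]
  constructor
  · intro h
    apply Subtype.ext
    rw [pow_two]
    change (x : Matrix (Fin 2) (Fin 2) F) * (x : Matrix (Fin 2) (Fin 2) F) = 1
    ext i j
    fin_cases i <;> fin_cases j <;> simp [Matrix.mul_apply, Fin.sum_univ_two]
    · linear_combination (x.1 0 0) * h - hdet - h2
    · linear_combination (x.1 0 1) * h
    · linear_combination (x.1 1 0) * h
    · linear_combination (x.1 1 1) * h - hdet - h2
  · intro h
    have h3 : (x : Matrix (Fin 2) (Fin 2) F) * (x : Matrix (Fin 2) (Fin 2) F) = 1 := by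
      have := congrArg Subtype.val h
      rw [pow_two] at this
      exact this
    have e00 := congrFun (congrFun h3 0) 0
    have e01 := congrFun (congrFun h3 0) 1
    have e10 := congrFun (congrFun h3 1) 0
    have e11 := congrFun (congrFun h3 1) 1
    simp [Matrix.mul_apply, Fin.sum_univ_two] at e00 e01 e10 e11
    -- (tr)^2 = x00^2 + x11^2 = (1 - qr) + (1 - qr) = 0
    have h4 : (x.1 0 0 + x.1 1 1) * (x.1 0 0 + x.1 1 1) = 0 := by
      linear_combination e00 + e11 + h2 * (x.1 0 0 * x.1 1 1 - x.1 0 1 * x.1 1 0 + 1)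
    rcases mul_eq_zero.1 h4 with h | h <;> exact h

end Cfsg.Agent.Lib.Helper72SNScal
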