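import Mathlib
import Cfsg.Agent.Lib.Helper20SNDefs
import Cfsg.Agent.Lib.Helper72SNScal

set_option autoImplicit false

namespace Cfsg.Agent.Lib.Helper72SNCinv

open Cfsg.Agent.Lib.Helper20SNDefs Cfsg.Agent.Lib.Helper72SNForm Cfsg.Agent.Lib.Helper72SNScal

local notation "SL2" F => Matrix.SpecialLinearGroup (Fin 2) F

theorem card_centralizer_invol {F : Type*} [Field F] [Finite F] [CharP F 2] (t : SL2 F)
    (ht : orderOf t = 2) : Nat.card (Subgroup.centralizer ({t} : Set (SL2 F))) = Nat.card F := by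
  have h2 : (2 : F) = 0 := CharP.cast_eq_zero F 2
  have ht1 : t ≠ 1 := by
    rintro rfl
    rw [orderOf_one] at ht
    omega
  have ht2 : t ^ 2 = 1 := by
    have := pow_orderOf_eq_one t
    rwa [ht] at this
  have htr := (trace_eq_zero_iff t).2 ht2
  rw [Matrix.trace_fin_two] at htr
  have hns := not_scalar t ht1
  have hdt := t.2
  rw [Matrix.det_fin_two] at hdt
  have hdet : ∀ a b : F, (a • (1 : Matrix (Fin 2) (Fin 2) F) + b • t.1).det = (a + b) * (a + b) := by
    intro a b
    rw [Matrix.det_fin_two]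
    simp
    linear_combination a * b * htr + b * b * hdt - a * b * h2
  have hdet1 : ∀ b : F, ((1 + b) • (1 : Matrix (Fin 2) (Fin 2) F) + b • t.1).det = 1 := by
    intro b
    rw [hdet]
    linear_combination (2 * b + 2 * b * b) * h2
  let f0 : F → SL2 F := fun b => ⟨(1 + b) • (1 : Matrix (Fin 2) (Fin 2) F) + b • t.1, hdet1 b⟩
  have hf0 : ∀ b, f0 b ∈ Subgroup.centralizer ({t} : Set (SL2 F)) := by
    intro b
    rw [Subgroup.mem_centralizer_singleton_iff]
    apply Subtype.ext
    change ((1 + b) • (1 : Matrix (Fin 2) (Fin 2) F) + b • t.1) * t.1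
      = t.1 * ((1 + b) • (1 : Matrix (Fin 2) (Fin 2) F) + b • t.1)
    simp only [add_mul, mul_add, smul_mul_assoc, mul_smul_comm, one_mul, mul_one]
  let f : F → Subgroup.centralizer ({t} : Set (SL2 F)) := fun b => ⟨f0 b, hf0 b⟩
  have hinj : Function.Injective f := by
    intro b b' hbb
    have h1 : (1 + b) • (1 : Matrix (Fin 2) (Fin 2) F) + b • t.1
        = (1 + b') • (1 : Matrix (Fin 2) (Fin 2) F) + b' • t.1 :=
      congrArg (fun z : Subgroup.centralizer ({t} : Set (SL2 F)) => (z : SL2 F).1) hbb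
    by_contra hne
    have hne' : b - b' ≠ 0 := sub_ne_zero.2 hne
    apply hns (-1)
    have h3 : (b - b') • t.1 = (b - b') • ((-1 : F) • (1 : Matrix (Fin 2) (Fin 2) F)) := by
      have h4 : (b - b') • t.1 - (b - b') • ((-1 : F) • (1 : Matrix (Fin 2) (Fin 2) F))
          = ((1 + b) • (1 : Matrix (Fin 2) (Fin 2) F) + b • t.1)
            - ((1 + b') • (1 : Matrix (Fin 2) (Fin 2) F) + b' • t.1) := by
        module
      rw [h1, sub_self] at h4
      exact sub_eq_zero.1 h4
    exact smul_right_injective _ hne' h3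
  have hsurj : Function.Surjective f := by
    rintro ⟨y, hy⟩
    rw [Subgroup.mem_centralizer_singleton_iff] at hy
    have hc' : (t : Matrix (Fin 2) (Fin 2) F) * (y : Matrix (Fin 2) (Fin 2) F)
        = (y : Matrix (Fin 2) (Fin 2) F) * (t : Matrix (Fin 2) (Fin 2) F) := by
      have := congrArg Subtype.val hy
      simpa using this.symm
    obtain ⟨a, b, hab⟩ := comm_form _ _ hns hc'
    have hdy := y.2
    have hab' : y.1 = a • (1 : Matrix (Fin 2) (Fin 2) F) + b • t.1 := hab
    rw [hab', hdet] at hdy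
    have h3 : (a + b + 1) * (a + b + 1) = 0 := by
      linear_combination hdy + (a + b + 1) * h2
    have h4 : a + b + 1 = 0 := by
      rcases mul_eq_zero.1 h3 with h | h <;> exact h
    have h5 : a = 1 + b := by
      linear_combination h4 - (b + 1) * h2
    refine ⟨b, ?_⟩
    apply Subtype.ext
    apply Subtype.ext
    change (1 + b) • (1 : Matrix (Fin 2) (Fin 2) F) + b • t.1 = y.1
    rw [hab', h5]
  exact (Nat.card_congr (Equiv.ofBijective f ⟨hinj, hsurj⟩)).symm

end Cfsg.Agent.Lib.Helper72SNCinv
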