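import Mathlib
import Cfsg.Agent.Lib.Helper20SNDefs
import Cfsg.Agent.Lib.Helper72SNScal

set_option autoImplicit false

namespace Cfsg.Agent.Lib.Helper72SNNinv

open Cfsg.Agent.Lib.Helper20SNDefs Cfsg.Agent.Lib.Helper72SNForm Cfsg.Agent.Lib.Helper72SNScal

local notation "SL2" F => Matrix.SpecialLinearGroup (Fin 2) F

theorem conj_eq_or_inv {F : Type*} [Field F] [CharP F 2] (x w : SL2 F)
    (hx : (x : Matrix (Fin 2) (Fin 2) F).trace ≠ 0) (hc : (w * x * w⁻¹) * x = x * (w * x * w⁻¹)) :
    w * x * w⁻¹ = x ∨ w * x * w⁻¹ = x⁻¹ := by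
  have h2 : (2 : F) = 0 := CharP.cast_eq_zero F 2
  have hx1 : x ≠ 1 := by
    rintro rfl
    apply hx
    simp
    linear_combination h2
  have hns := not_scalar x hx1
  set y : SL2 F := w * x * w⁻¹ with hy
  have hc' : (x : Matrix (Fin 2) (Fin 2) F) * (y : Matrix (Fin 2) (Fin 2) F)
      = (y : Matrix (Fin 2) (Fin 2) F) * (x : Matrix (Fin 2) (Fin 2) F) := by
    have := congrArg Subtype.val hc
    simpa using this.symm
  obtain ⟨a, b, hab⟩ := comm_form _ _ hns hc'
  have htr : (y : Matrix (Fin 2) (Fin 2) F).trace = (x : Matrix (Fin 2) (Fin 2) F).trace := by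
    have h1 : (y : Matrix (Fin 2) (Fin 2) F)
        = (w : Matrix (Fin 2) (Fin 2) F) * (x : Matrix (Fin 2) (Fin 2) F)
          * ((w⁻¹ : SL2 F) : Matrix (Fin 2) (Fin 2) F) := by
      rw [hy]
      rfl
    have h3 : ((w⁻¹ : SL2 F) : Matrix (Fin 2) (Fin 2) F) * (w : Matrix (Fin 2) (Fin 2) F) = 1 := by
      have := congrArg Subtype.val (inv_mul_cancel w)
      exact this
    rw [h1, Matrix.trace_mul_comm, ← mul_assoc, h3, one_mul]
  have hdx := x.2
  have hdy := y.2
  rw [Matrix.det_fin_two] at hdx hdy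
  rw [Matrix.trace_fin_two, Matrix.trace_fin_two] at htr
  rw [Matrix.trace_fin_two] at hx
  have y00 : y.1 0 0 = a + b * x.1 0 0 := by
    have := congrFun (congrFun hab 0) 0
    simpa using this
  have y01 : y.1 0 1 = b * x.1 0 1 := by
    have := congrFun (congrFun hab 0) 1
    simpa using this
  have y10 : y.1 1 0 = b * x.1 1 0 := by
    have := congrFun (congrFun hab 1) 0
    simpa using this
  have y11 : y.1 1 1 = a + b * x.1 1 1 := by
    have := congrFun (congrFun hab 1) 1
    simpa using this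
  rw [y00, y11] at htr
  rw [y00, y01, y10, y11] at hdy
  have hb : b = 1 := by
    have h3 : (b - 1) * (x.1 0 0 + x.1 1 1) = 0 := by
      linear_combination htr - a * h2
    rcases mul_eq_zero.1 h3 with h | h
    · linear_combination h
    · exact absurd h hx
  subst hb
  have ha : a * (a + (x.1 0 0 + x.1 1 1)) = 0 := by
    linear_combination hdy - hdx
  rcases mul_eq_zero.1 ha with h | h
  · left
    apply Subtype.ext
    change (y : Matrix (Fin 2) (Fin 2) F) = x
    rw [hab, h]
    simp
  · right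
    apply Subtype.ext
    change (y : Matrix (Fin 2) (Fin 2) F) = ((x⁻¹ : SL2 F) : Matrix (Fin 2) (Fin 2) F)
    rw [Matrix.SpecialLinearGroup.coe_inv, Matrix.adjugate_fin_two, hab]
    ext i j
    fin_cases i <;> fin_cases j <;> simp
    · linear_combination h - h2 * x.1 1 1
    · linear_combination h2 * x.1 0 1
    · linear_combination h2 * x.1 1 0
    · linear_combination h - h2 * x.1 0 0

end Cfsg.Agent.Lib.Helper72SNNinv
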