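import Mathlib
import Cfsg.Agent.Lib.Helper72PNilA
import Cfsg.Agent.Lib.Helper72Refl
import Cfsg.Agent.Lib.Helper72Knoche

set_option autoImplicit false

universe u

namespace Cfsg.Agent.Lib.Helper72SqFree

open Cfsg.Agent.Lib.Helper72Pi Cfsg.Agent.Lib.Helper72Class Cfsg.Agent.Lib.Helper72PElt
  Cfsg.Agent.Lib.Helper72Cyclic Cfsg.Agent.Lib.Helper72PNil Cfsg.Agent.Lib.Helper72Idx
  Cfsg.Agent.Lib.Helper72PNilA Cfsg.Agent.Lib.Helper72Refl Cfsg.Agent.Lib.Helper72Knoche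

theorem sq_not_dvd_of_squarefree {p n : ℕ} (hp : p.Prime) (h : Squarefree n) : ¬ p ^ 2 ∣ n := by
  intro hd
  rw [pow_two] at hd
  exact hp.one_lt.ne' (Nat.isUnit_iff.mp (h p hd))

section PClosed

variable {G : Type*} [Group G] {q : ℕ} [Fact q.Prime] {Q : Subgroup G}

theorem normal_of_pClosed (hQ : ∀ x, x ∈ Q ↔ ∃ k : ℕ, orderOf x = q ^ k) : Q.Normal :=
  ⟨fun x hx g => by rw [hQ] at hx ⊢; rwa [orderOf_conj]⟩

theorem isPGroup_of_pClosed (hQ : ∀ x, x ∈ Q ↔ ∃ k : ℕ, orderOf x = q ^ k) : IsPGroup q Q := by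
  intro x
  obtain ⟨k, hk⟩ := (hQ x).mp x.2
  refine ⟨k, ?_⟩
  apply Subtype.ext
  rw [Subgroup.coe_pow, ← hk, pow_orderOf_eq_one]
  rfl

theorem not_dvd_index_of_pClosed [Finite G] (hQ : ∀ x, x ∈ Q ↔ ∃ k : ℕ, orderOf x = q ^ k) :
    ¬ q ∣ Q.index := by
  let P : Sylow q G := default
  have h : (P : Subgroup G) ≤ Q := fun x hx => (hQ x).mpr (isP_of_mem P.isPGroup' hx)
  exact fun hd => P.not_dvd_index (hd.trans (Subgroup.index_dvd_of_le h))

/-- every element has a power, with exponent prime to `q`, inside `Q` -/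
theorem exists_pow_mem_of_pClosed [Finite G] (hQ : ∀ x, x ∈ Q ↔ ∃ k : ℕ, orderOf x = q ^ k)
    (g : G) : ∃ n : ℕ, n.Coprime q ∧ g ^ n ∈ Q := by
  have hq : q.Prime := Fact.out
  obtain ⟨k, n, hn, hkn⟩ := Nat.exists_eq_pow_mul_and_not_dvd (orderOf_pos g).ne' q hq.ne_one
  refine ⟨n, ((Nat.Prime.coprime_iff_not_dvd hq).mpr hn).symm, ?_⟩
  rw [hQ]
  have h1 : (g ^ n) ^ q ^ k = 1 := by
    rw [← pow_mul, mul_comm, ← hkn, pow_orderOf_eq_one]
  obtain ⟨m, _, hm⟩ := (Nat.dvd_prime_pow hq).mp (orderOf_dvd_of_pow_eq_one h1)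
  exact ⟨m, hm⟩

end PClosed

/-- stability computation -/
theorem conj_pow_eq {G : Type*} [Group G] (h w m : G) (hw : h * w * h⁻¹ = w * m)
    (hm : h * m * h⁻¹ = m) : ∀ n : ℕ, h ^ n * w * (h ^ n)⁻¹ = w * m ^ n := by
  intro n
  induction n with
  | zero => simp
  | succ n ih =>
    have hmn : h * m ^ n * h⁻¹ = m ^ n := by
      rw [← conj_pow, hm]
    calc h ^ (n + 1) * w * (h ^ (n + 1))⁻¹ = h * (h ^ n * w * (h ^ n)⁻¹) * h⁻¹ := by
          rw [pow_succ']; group
      _ = (h * w * h⁻¹) * (h * m ^ n * h⁻¹) := by rw [ih]; group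
      _ = w * m ^ (n + 1) := by rw [hw, hmn, pow_succ', mul_assoc]

section Main

variable {G : Type*} [Group G] [Finite G] {q : ℕ} [Fact q.Prime] {Q : Subgroup G}

theorem card_le_of_squarefree (hsf : ∀ x : G, Squarefree (Subgroup.centralizer ({x} : Set G)).index)
    (hQ : ∀ x, x ∈ Q ↔ ∃ k : ℕ, orderOf x = q ^ k) (g : G) :
    (Subgroup.centralizer ({g} : Set G)).relIndex Q ≤ q ∧
    Nat.card Q ≤ q * Nat.card (Q ⊓ Subgroup.centralizer ({g} : Set G) : Subgroup G) := by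
  have hq : q.Prime := Fact.out
  haveI := normal_of_pClosed hQ
  have h1 : (Subgroup.centralizer ({g} : Set G)).relIndex Q ∣
      (Subgroup.centralizer ({g} : Set G)).index := relIndex_dvd_index _ _
  have h2 : Squarefree ((Subgroup.centralizer ({g} : Set G)).relIndex Q) :=
    (hsf g).squarefree_of_dvd h1
  obtain ⟨k, hk⟩ := IsPGroup.iff_card.mp (isPGroup_of_pClosed hQ)
  have h3 : (Subgroup.centralizer ({g} : Set G)).relIndex Q ∣ q ^ k :=
    hk ▸ Subgroup.relIndex_dvd_card _ _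
  obtain ⟨j, _, hj⟩ := (Nat.dvd_prime_pow hq).mp h3
  have h4 : (Subgroup.centralizer ({g} : Set G)).relIndex Q ≤ q := by
    rw [hj]
    by_contra hcon
    push_neg at hcon
    have hj2 : 2 ≤ j := by
      by_contra h5
      push_neg at h5
      have : q ^ j ≤ q ^ 1 := Nat.pow_le_pow_right hq.pos (by omega)
      rw [pow_one] at this
      omega
    apply sq_not_dvd_of_squarefree hq h2
    rw [hj]
    exact pow_dvd_pow q hj2
  refine ⟨h4, ?_⟩
  have h5 : (Q ⊓ Subgroup.centralizer ({g} : Set G)).relIndex Q *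
      Nat.card (Q ⊓ Subgroup.centralizer ({g} : Set G) : Subgroup G) = Nat.card Q := by
    rw [← Subgroup.relIndex_bot_left, ← Subgroup.relIndex_bot_left, mul_comm]
    exact Subgroup.relIndex_mul_relIndex _ _ _ bot_le inf_le_left
  rw [Subgroup.inf_relIndex_left] at h5
  rw [← h5]
  exact Nat.mul_le_mul_right _ h4

/-- if some `q`-regular element acts non-trivially on `Q`, then `Q` is abelian -/
theorem abelian_of_nontrivial_action
    (hsf : ∀ x : G, Squarefree (Subgroup.centralizer ({x} : Set G)).index)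
    (hQ : ∀ x, x ∈ Q ↔ ∃ k : ℕ, orderOf x = q ^ k) (h : G) (hh : (orderOf h).Coprime q)
    (u₀ : G) (hu₀ : u₀ ∈ Q) (hne : h * u₀ ≠ u₀ * h) : ∀ a ∈ Q, ∀ b ∈ Q, a * b = b * a := by
  have hq : q.Prime := Fact.out
  haveI hQn := normal_of_pClosed hQ
  have hQp := isPGroup_of_pClosed hQ
  set Q₀ := Q ⊓ Subgroup.centralizer ({h} : Set G) with hQ₀
  have hcard := (card_le_of_squarefree hsf hQ h).2
  obtain ⟨_, hcomm, _⟩ := pow_comm_mem_of_card_le q Q Q₀ hQp inf_le_left hcard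
  have hQ₀h : ∀ u ∈ Q₀, h * u * h⁻¹ = u := by
    intro u hu
    have := Subgroup.mem_centralizer_singleton_iff.mp (Subgroup.mem_inf.mp hu).2
    rw [← this]; group
  have hu₀' : u₀ ∉ Q₀ := by
    intro hmem
    apply hne
    exact (Subgroup.mem_centralizer_singleton_iff.mp (Subgroup.mem_inf.mp hmem).2).symm
  -- (i) Q₀ is abelian
  have hab₀ : ∀ u ∈ Q₀, ∀ v ∈ Q₀, v * u = u * v := by
    intro u hu v hv
    have huh : Commute u h := Subgroup.mem_centralizer_singleton_iff.mp (Subgroup.mem_inf.mp hu).2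
    have hcop : (orderOf u).Coprime (orderOf h) := by
      obtain ⟨k, hk⟩ := (hQ u).mp (Subgroup.mem_inf.mp hu).1
      rw [hk]
      exact (hh.symm).pow_left k
    have hC := centralizer_mul_of_coprime huh hcop
    have hcard' := (card_le_of_squarefree hsf hQ (u * h)).2
    have hle : Q ⊓ Subgroup.centralizer ({u * h} : Set G) ≤ Q₀ := by
      rw [hC]
      exact fun x hx => ⟨hx.1, (Subgroup.mem_inf.mp hx.2).2⟩
    by_contra hcon
    have hv' : v ∉ Q ⊓ Subgroup.centralizer ({u * h} : Set G) := by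
      intro hmem
      rw [hC] at hmem
      exact hcon (Subgroup.mem_centralizer_singleton_iff.mp
        (Subgroup.mem_inf.mp (Subgroup.mem_inf.mp hmem).2).1)
    have := le_of_card_le_of_not_mem q Q _ Q₀ hQp hle inf_le_left hcard' v hv hv'
    exact hu₀' (this ▸ hu₀)
  -- (ii)
  have hm : ∀ w ∈ Q, ∀ u ∈ Q₀, (w⁻¹ * (h * w * h⁻¹)) * u = u * (w⁻¹ * (h * w * h⁻¹)) := by
    intro w hw u hu
    have hz := hQ₀h _ (hcomm w hw u (Subgroup.mem_inf.mp hu).1)
    have hu' := hQ₀h u hu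
    have h1 : h * (w * u * w⁻¹ * u⁻¹) * h⁻¹ =
        (h * w * h⁻¹) * (h * u * h⁻¹) * (h * w * h⁻¹)⁻¹ * (h * u * h⁻¹)⁻¹ := by group
    rw [h1, hu'] at hz
    have h2 : (h * w * h⁻¹) * u * (h * w * h⁻¹)⁻¹ = w * u * w⁻¹ := by
      have := congrArg (· * u) hz
      simpa using this
    calc (w⁻¹ * (h * w * h⁻¹)) * u
        = w⁻¹ * ((h * w * h⁻¹) * u * (h * w * h⁻¹)⁻¹) * (h * w * h⁻¹) := by group
      _ = u * (w⁻¹ * (h * w * h⁻¹)) := by rw [h2]; group
  have hmQ : ∀ w ∈ Q, w⁻¹ * (h * w * h⁻¹) ∈ Q := fun w hw =>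
    Q.mul_mem (Q.inv_mem hw) (hQn.conj_mem w hw h)
  by_cases hall : ∀ w ∈ Q, w⁻¹ * (h * w * h⁻¹) ∈ Q₀
  · exfalso
    apply hne
    have h1 := conj_pow_eq h u₀ (u₀⁻¹ * (h * u₀ * h⁻¹)) (by group) (hQ₀h _ (hall u₀ hu₀)) (orderOf h)
    rw [pow_orderOf_eq_one] at h1
    have h2 : (u₀⁻¹ * (h * u₀ * h⁻¹)) ^ orderOf h = 1 := by
      have : u₀ * 1 = u₀ * (u₀⁻¹ * (h * u₀ * h⁻¹)) ^ orderOf h := by
        rw [← h1]; group
      exact (mul_left_cancel this).symm
    have h3 : (orderOf (u₀⁻¹ * (h * u₀ * h⁻¹))).Coprime q :=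
      Nat.Coprime.coprime_dvd_left (orderOf_dvd_of_pow_eq_one h2) hh
    have h4 := eq_one_of_isP_of_coprime ((hQ _).mp (hmQ u₀ hu₀)) h3
    calc h * u₀ = u₀ * (u₀⁻¹ * (h * u₀ * h⁻¹)) * h := by group
      _ = u₀ * h := by rw [h4, mul_one]
  · push_neg at hall
    obtain ⟨w, hw, hwm⟩ := hall
    set m := w⁻¹ * (h * w * h⁻¹) with hmdef
    have hmQ' : m ∈ Q := hmQ w hw
    have hmc := hm w hw
    -- every element of Q centralises Q₀
    have hL1 : Q ⊓ Subgroup.centralizer (Q₀ : Set G) = Q := by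
      apply le_of_card_le_of_not_mem q Q Q₀ _ hQp _ inf_le_left hcard m _ hwm
      · intro v hv
        refine ⟨(Subgroup.mem_inf.mp hv).1, ?_⟩
        change v ∈ Subgroup.centralizer (Q₀ : Set G)
        rw [Subgroup.mem_centralizer_iff]
        intro u hu
        exact (hab₀ u hu v hv).symm
      · refine ⟨hmQ', ?_⟩
        change m ∈ Subgroup.centralizer (Q₀ : Set G)
        rw [Subgroup.mem_centralizer_iff]
        intro u hu
        exact (hmc u hu).symm
    have hQQ₀ : ∀ a ∈ Q, ∀ u ∈ Q₀, u * a = a * u := by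
      intro a ha u hu
      have : a ∈ Q ⊓ Subgroup.centralizer (Q₀ : Set G) := hL1.ge ha
      exact Subgroup.mem_centralizer_iff.mp (Subgroup.mem_inf.mp this).2 u hu
    have hL2 : Q ⊓ Subgroup.centralizer ({m} : Set G) = Q := by
      apply le_of_card_le_of_not_mem q Q Q₀ _ hQp _ inf_le_left hcard m _ hwm
      · intro v hv
        refine ⟨(Subgroup.mem_inf.mp hv).1, ?_⟩
        change v ∈ Subgroup.centralizer ({m} : Set G)
        rw [Subgroup.mem_centralizer_singleton_iff]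
        exact hQQ₀ m hmQ' v hv
      · refine ⟨hmQ', ?_⟩
        change m ∈ Subgroup.centralizer ({m} : Set G)
        rw [Subgroup.mem_centralizer_singleton_iff]
    have hL3 : Q ⊓ Subgroup.centralizer (Q : Set G) = Q := by
      apply le_of_card_le_of_not_mem q Q Q₀ _ hQp _ inf_le_left hcard m _ hwm
      · intro v hv
        refine ⟨(Subgroup.mem_inf.mp hv).1, ?_⟩
        change v ∈ Subgroup.centralizer (Q : Set G)
        rw [Subgroup.mem_centralizer_iff]
        intro a ha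
        exact (hQQ₀ a ha v hv).symm
      · refine ⟨hmQ', ?_⟩
        change m ∈ Subgroup.centralizer (Q : Set G)
        rw [Subgroup.mem_centralizer_iff]
        intro a ha
        have : a ∈ Q ⊓ Subgroup.centralizer ({m} : Set G) := hL2.ge ha
        exact Subgroup.mem_centralizer_singleton_iff.mp (Subgroup.mem_inf.mp this).2
    intro a ha b hb
    have : b ∈ Q ⊓ Subgroup.centralizer (Q : Set G) := hL3.ge hb
    exact Subgroup.mem_centralizer_iff.mp (Subgroup.mem_inf.mp this).2 a ha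

/-- all commutators `[g, u]`, `u ∈ Q`, lie in one subgroup of order at most `q` -/
theorem exists_small_commutator
    (hsf : ∀ x : G, Squarefree (Subgroup.centralizer ({x} : Set G)).index)
    (hQ : ∀ x, x ∈ Q ↔ ∃ k : ℕ, orderOf x = q ^ k) :
    ∃ T : Subgroup G, Nat.card T ≤ q ∧ ∀ g : G, ∀ u ∈ Q, g * u * g⁻¹ * u⁻¹ ∈ T := by
  have hq : q.Prime := Fact.out
  haveI hQn := normal_of_pClosed hQ
  have hQp := isPGroup_of_pClosed hQ
  by_cases hc : ∀ h : G, (orderOf h).Coprime q → ∀ u ∈ Q, h * u = u * h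
  · obtain ⟨T', hT', hcomm'⟩ := knoche (X := Q) hQp (fun a => by
      rw [idx_subtype]; exact (card_le_of_squarefree hsf hQ a).1)
    refine ⟨T'.map Q.subtype, ?_, ?_⟩
    · rw [Subgroup.card_map_of_injective (Subgroup.subtype_injective Q)]; exact hT'
    · intro g u hu
      obtain ⟨a, z, _, _, haz, haπ, hzπ⟩ := exists_pi_split ({q} : Set ℕ) g (orderOf_pos g).ne'
      have haQ : a ∈ Q := (hQ a).mpr ((isPiElt_singleton_iff hq a (orderOf_pos a).ne').mp haπ)
      have hzu := hc z ((isPiElt_compl_singleton_iff hq z).mp hzπ) u hu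
      refine ⟨⟨a, haQ⟩ * ⟨u, hu⟩ * ⟨a, haQ⟩⁻¹ * ⟨u, hu⟩⁻¹, hcomm' _ _, ?_⟩
      change a * u * a⁻¹ * u⁻¹ = g * u * g⁻¹ * u⁻¹
      rw [← haz]
      calc a * u * a⁻¹ * u⁻¹ = a * (u * z) * z⁻¹ * a⁻¹ * u⁻¹ := by group
        _ = a * z * u * (a * z)⁻¹ * u⁻¹ := by rw [← hzu]; group
  · push_neg at hc
    obtain ⟨h, hh, u₀, hu₀, hne⟩ := hc
    have hab := abelian_of_nontrivial_action hsf hQ h hh u₀ hu₀ hne
    letI : CommGroup Q :=
      { (inferInstance : Group Q) with mul_comm := fun a b => Subtype.ext (hab a a.2 b b.2) }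
    obtain ⟨T', hT', hT''⟩ := exists_common_center (V := Q) hQp
      (MulAut.conjNormal : G →* MulAut Q).range (by
        rintro _ ⟨g, rfl⟩
        obtain ⟨n, hn, hgn⟩ := exists_pow_mem_of_pClosed hQ g
        apply Nat.Coprime.coprime_dvd_left _ hn
        apply orderOf_dvd_of_pow_eq_one
        rw [← map_pow]
        ext v
        rw [MulAut.conjNormal_apply, MulAut.one_apply, hab _ hgn _ v.2]
        group) (by
        rintro _ ⟨g, rfl⟩
        have h1 : (delta (MulAut.conjNormal g : MulAut Q)).ker =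
            (Subgroup.centralizer ({g} : Set G)).subgroupOf Q := by
          ext v
          rw [mem_ker_delta, Subgroup.mem_subgroupOf, Subgroup.mem_centralizer_singleton_iff,
            Subtype.ext_iff, MulAut.conjNormal_apply]
          constructor
          · intro h2
            calc (v : G) * g = (g * v * g⁻¹) * g := by rw [h2]
              _ = g * v := by group
          · intro h2
            rw [← h2]; group
        rw [h1]
        exact (card_le_of_squarefree hsf hQ g).1)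
    refine ⟨T'.map Q.subtype, ?_, ?_⟩
    · rw [Subgroup.card_map_of_injective (Subgroup.subtype_injective Q)]; exact hT'
    · intro g u hu
      refine ⟨_, hT'' (MulAut.conjNormal g) ⟨g, rfl⟩ ⟨u, hu⟩, ?_⟩
      rfl

/-- `G' ∩ Q` has order at most `q` -/
theorem card_commutator_inf_le
    (hsf : ∀ x : G, Squarefree (Subgroup.centralizer ({x} : Set G)).index)
    (hQ : ∀ x, x ∈ Q ↔ ∃ k : ℕ, orderOf x = q ^ k) :
    Nat.card (commutator G ⊓ Q : Subgroup G) ≤ q := by
  have hq : q.Prime := Fact.out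
  haveI hQn := normal_of_pClosed hQ
  have hQp := isPGroup_of_pClosed hQ
  obtain ⟨T, hT, hTc⟩ := exists_small_commutator hsf hQ
  set T₀ : Subgroup G := ⁅(⊤ : Subgroup G), Q⁆ with hT₀
  have hT₀T : T₀ ≤ T := Subgroup.commutator_le.mpr fun g _ u hu => hTc g u hu
  refine le_trans (Subgroup.card_le_of_le (le_trans ?_ hT₀T)) hT
  let P : Sylow q G := hQp.toSylow (not_dvd_index_of_pClosed hQ)
  let Pb : Sylow q (G ⧸ T₀) := P.mapSurjective (QuotientGroup.mk'_surjective T₀)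
  obtain ⟨M, hM, hMc, _⟩ := burnside_in_subgroup Pb ⊤ le_top (by
    rintro y _ _ _ ⟨u, hu, rfl⟩
    obtain ⟨g, rfl⟩ := QuotientGroup.mk_surjective y
    have h1 : g * u * g⁻¹ * u⁻¹ ∈ T₀ := Subgroup.commutator_mem_commutator (Subgroup.mem_top g) hu
    have h2 : ((g * u * g⁻¹ * u⁻¹ : G) : G ⧸ T₀) = 1 := (QuotientGroup.eq_one_iff _).mpr h1
    change (g : G ⧸ T₀) * (u : G ⧸ T₀) = (u : G ⧸ T₀) * (g : G ⧸ T₀)
    simp only [QuotientGroup.mk_mul, QuotientGroup.mk_inv] at h2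
    calc (g : G ⧸ T₀) * (u : G ⧸ T₀)
        = ((g : G ⧸ T₀) * (u : G ⧸ T₀) * (g : G ⧸ T₀)⁻¹ * (u : G ⧸ T₀)⁻¹) *
          ((u : G ⧸ T₀) * (g : G ⧸ T₀)) := by group
      _ = (u : G ⧸ T₀) * (g : G ⧸ T₀) := by rw [h2, one_mul])
  have hle : commutator G ≤ M.comap (QuotientGroup.mk' T₀) := by
    rw [commutator_def]
    apply Subgroup.commutator_le.mpr
    intro a _ b _
    rw [Subgroup.mem_comap]
    have := hMc (a : G ⧸ T₀) (Subgroup.mem_top _) (b : G ⧸ T₀) (Subgroup.mem_top _)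
    simpa [commutatorElement_def] using this
  intro x hx
  have h1 : (orderOf (x : G ⧸ T₀)).Coprime q := ((hM _).mp (hle hx.1)).2
  have h2 : ∃ k : ℕ, orderOf (x : G ⧸ T₀) = q ^ k :=
    isP_map (QuotientGroup.mk' T₀) ((hQ x).mp hx.2)
  exact (QuotientGroup.eq_one_iff x).mp (eq_one_of_isP_of_coprime h2 h1)

end Main

end Cfsg.Agent.Lib.Helper72SqFree
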