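import Mathlib
import Cfsg.Agent.Lib.Helper72SqFree
import Cfsg.Agent.Lib.Helper11Supersolvable

set_option autoImplicit false

universe u

namespace Cfsg.Agent.Lib.Helper72SqFree2

open Cfsg.Agent.Lib.Helper72Pi Cfsg.Agent.Lib.Helper72Class Cfsg.Agent.Lib.Helper72PElt
  Cfsg.Agent.Lib.Helper72Cyclic Cfsg.Agent.Lib.Helper72PNil Cfsg.Agent.Lib.Helper72Idx
  Cfsg.Agent.Lib.Helper72PNilA Cfsg.Agent.Lib.Helper72SqFree

/-- a non-trivial group with square-free class sizes has a normal Sylow subgroup -/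
theorem exists_pClosed : ∀ (n : ℕ) (G : Type u) [Group G] [Finite G], Nat.card G = n → n ≠ 1 →
    (∀ x : G, Squarefree (Subgroup.centralizer ({x} : Set G)).index) →
    ∃ q : ℕ, q.Prime ∧ q ∣ Nat.card G ∧
      ∃ Q : Subgroup G, ∀ x, x ∈ Q ↔ ∃ k : ℕ, orderOf x = q ^ k := by
  intro n
  induction n using Nat.strong_induction_on with
  | _ n ih =>
  intro G _ _ hn hn1 hsf
  set p := (Nat.card G).minFac with hpdef
  have hp : p.Prime := Nat.minFac_prime (by rw [hn]; exact hn1)
  haveI : Fact p.Prime := ⟨hp⟩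
  have hpG : p ∣ Nat.card G := Nat.minFac_dvd _
  obtain ⟨K, hK⟩ := pNil_of_sq_not_dvd p _ G rfl
    (fun r hr hrd => Nat.minFac_le_of_dvd hr.two_le hrd)
    (fun x => sq_not_dvd_of_squarefree hp (hsf x))
  by_cases hKbot : K = ⊥
  · refine ⟨p, hp, hpG, ⊤, fun x => ⟨fun _ => ?_, fun _ => Subgroup.mem_top x⟩⟩
    obtain ⟨a, z, _, _, haz, haπ, hzπ⟩ := exists_pi_split ({p} : Set ℕ) x (orderOf_pos x).ne'
    have hz : z ∈ K := (hK z).mpr ((isPiElt_compl_singleton_iff hp z).mp hzπ)
    rw [hKbot, Subgroup.mem_bot] at hz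
    rw [← haz, hz, mul_one]
    exact (isPiElt_singleton_iff hp a (orderOf_pos a).ne').mp haπ
  · haveI hKn : K.Normal := ⟨fun x hx g => by rw [hK] at hx ⊢; rwa [orderOf_conj]⟩
    have hKtop : K ≠ ⊤ := by
      intro htop
      obtain ⟨x, hx⟩ := exists_prime_orderOf_dvd_card' (G := G) p hpG
      have : x ∈ K := htop ▸ Subgroup.mem_top x
      rw [hK, hx] at this
      exact hp.one_lt.ne' ((Nat.coprime_self p).mp this)
    have hlt : Nat.card K < n := by
      rw [← hn]
      by_contra hcon
      push_neg at hcon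
      exact hKtop (Subgroup.eq_top_of_card_eq K (le_antisymm (Subgroup.card_le_card_group K) hcon))
    have hK1 : Nat.card K ≠ 1 := fun h => hKbot (Subgroup.card_eq_one.mp h)
    obtain ⟨q, hq, hqK, QK, hQK⟩ := ih _ hlt K rfl hK1
      (fun x => (hsf x).squarefree_of_dvd (idx_normal_dvd K x))
    have hqp : (q : ℕ).Coprime p := by
      haveI : Fact q.Prime := ⟨hq⟩
      obtain ⟨x, hx⟩ := exists_prime_orderOf_dvd_card' (G := K) q hqK
      have := (hK x).mp x.2
      rwa [Subgroup.orderOf_coe, hx] at this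
    refine ⟨q, hq, hqK.trans (Subgroup.card_subgroup_dvd_card K), QK.map K.subtype, fun x => ?_⟩
    constructor
    · rintro ⟨k, hk, rfl⟩
      have := (hQK k).mp hk
      rwa [← Subgroup.orderOf_coe] at this
    · rintro ⟨k, hk⟩
      have hxK : x ∈ K := by
        rw [hK, hk]; exact hqp.pow_left k
      refine ⟨⟨x, hxK⟩, (hQK _).mpr ⟨k, ?_⟩, rfl⟩
      rw [← Subgroup.orderOf_coe]; exact hk

/-- **Main theorem**: square-free class sizes force a cyclic derived subgroup of square-free
order. -/
theorem commutator_cyclic_squarefree : ∀ (n : ℕ) (G : Type u) [Group G] [Finite G],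
    Nat.card G = n → (∀ x : G, Squarefree (Subgroup.centralizer ({x} : Set G)).index) →
    IsCyclic (commutator G) ∧ Squarefree (Nat.card (commutator G)) := by
  intro n
  induction n using Nat.strong_induction_on with
  | _ n ih =>
  intro G _ _ hn hsf
  by_cases hn1 : n = 1
  · have hsub : Subsingleton G := (Nat.card_eq_one_iff_unique.mp (hn.trans hn1)).1
    have hbot : commutator G = ⊥ := Subsingleton.elim _ _
    rw [hbot]
    exact ⟨inferInstance, by rw [Subgroup.card_bot]; exact squarefree_one⟩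
  obtain ⟨q, hq, hqG, Q, hQ⟩ := exists_pClosed n G hn hn1 hsf
  haveI : Fact q.Prime := ⟨hq⟩
  haveI hQn := normal_of_pClosed hQ
  have hQp := isPGroup_of_pClosed hQ
  have hQidx := not_dvd_index_of_pClosed hQ
  have hQ1 : 1 < Nat.card Q := by
    obtain ⟨x, hx⟩ := exists_prime_orderOf_dvd_card' (G := G) q hqG
    have hxQ : x ∈ Q := (hQ x).mpr ⟨1, by rw [hx, pow_one]⟩
    rw [Subgroup.one_lt_card_iff_ne_bot]
    intro hbot
    rw [hbot, Subgroup.mem_bot] at hxQ
    rw [hxQ, orderOf_one] at hx
    exact hq.one_lt.ne hx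
  have hcard : Nat.card (G ⧸ Q) * Nat.card Q = Nat.card G := by
    rw [mul_comm]; exact Subgroup.card_mul_index Q
  have hlt : Nat.card (G ⧸ Q) < n := by
    rw [← hn, ← hcard]
    exact lt_mul_of_one_lt_right Nat.card_pos hQ1
  obtain ⟨hcyc, hsq⟩ := ih _ hlt (G ⧸ Q) rfl (by
    intro x
    obtain ⟨g, rfl⟩ := QuotientGroup.mk_surjective x
    exact (hsf g).squarefree_of_dvd (idx_quot_dvd Q g))
  set D := commutator G with hD
  set f : D →* G ⧸ Q := (QuotientGroup.mk' Q).comp D.subtype with hf
  have hrange : f.range ≤ commutator (G ⧸ Q) := by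
    rw [hf, MonoidHom.range_comp, Subgroup.range_subtype, hD, commutator_def, commutator_def,
      Subgroup.map_commutator]
    exact Subgroup.commutator_mono le_top le_top
  have hker : f.ker = Q.subgroupOf D := by
    rw [hf, ← MonoidHom.comap_ker, QuotientGroup.ker_mk']
    rfl
  have hkercard : Nat.card f.ker = Nat.card (D ⊓ Q : Subgroup G) := by
    rw [hker, ← Subgroup.card_map_of_injective (Subgroup.subtype_injective D),
      Subgroup.subgroupOf_map_subtype, inf_comm]
  have hNle : Nat.card (D ⊓ Q : Subgroup G) ≤ q := card_commutator_inf_le hsf hQ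
  have hNp : IsPGroup q (D ⊓ Q : Subgroup G) := hQp.to_le inf_le_right
  have hN : Nat.card (D ⊓ Q : Subgroup G) = 1 ∨ Nat.card (D ⊓ Q : Subgroup G) = q := by
    obtain ⟨k, hk⟩ := IsPGroup.iff_card.mp hNp
    rcases Nat.eq_zero_or_pos k with rfl | hk0
    · left; rw [hk, pow_zero]
    · right
      apply le_antisymm hNle
      rw [hk]
      calc q = q ^ 1 := (pow_one q).symm
        _ ≤ q ^ k := Nat.pow_le_pow_right hq.pos hk0
  have hDcard : Nat.card f.ker * Nat.card f.range = Nat.card D := by
    rw [← Subgroup.index_ker]; exact Subgroup.card_mul_index _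
  have hrsq : Squarefree (Nat.card f.range) := hsq.squarefree_of_dvd (Subgroup.card_dvd_of_le hrange)
  have hrcop : (Nat.card f.range).Coprime q := by
    rw [Nat.coprime_comm, Nat.Prime.coprime_iff_not_dvd hq]
    intro hd
    exact hQidx (hd.trans (Subgroup.card_subgroup_dvd_card _))
  have hDsq : Squarefree (Nat.card D) := by
    rw [← hDcard, hkercard]
    rcases hN with h1 | h1
    · rw [h1, one_mul]; exact hrsq
    · rw [h1, Nat.squarefree_mul hrcop.symm]
      exact ⟨hq.squarefree, hrsq⟩
  refine ⟨?_, hDsq⟩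
  -- D is abelian
  haveI hNn : (D ⊓ Q : Subgroup G).Normal := inferInstance
  have hNcyc : IsCyclic (D ⊓ Q : Subgroup G) := by
    rcases hN with h1 | h1
    · have : Subsingleton (D ⊓ Q : Subgroup G) := (Nat.card_eq_one_iff_unique.mp h1).1
      infer_instance
    · exact isCyclic_of_prime_card h1
  have hDc := Cfsg.Agent.Lib.Helper11Supersolvable.commutator_le_centralizer_of_isCyclic
    (D ⊓ Q : Subgroup G) hNcyc
  haveI : IsCyclic f.range := Subgroup.isCyclic_of_le hrange
  have hcomm : ∀ a b : D, a * b = b * a := by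
    apply commutative_of_cyclic_center_quotient f.rangeRestrict
    rw [MonoidHom.ker_rangeRestrict, hker]
    intro x hx
    rw [Subgroup.mem_center_iff]
    intro d
    apply Subtype.ext
    have h1 : (x : G) ∈ (D ⊓ Q : Subgroup G) := ⟨x.2, hx⟩
    exact (Subgroup.mem_centralizer_iff.mp (hDc d.2) x h1).symm
  haveI : IsZGroup D := IsZGroup.of_squarefree hDsq
  haveI : Group.IsNilpotent D := by
    letI : CommGroup D := { (inferInstance : Group D) with mul_comm := hcomm }
    infer_instance
  infer_instance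

end Cfsg.Agent.Lib.Helper72SqFree2
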