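import Cfsg.Agent.Lib.Helper43R1Defs
import Cfsg.Agent.Lib.Helper9StR1h

set_option autoImplicit false

/-! Project 143, piece `r1bruhat`: `P = U H {1, w 1} U`.  `x_mul_w` (piece `r1xw`) is an extra hypothesis. -/

namespace Cfsg.Agent.Lib.Helper72StR1bruhat

open Cfsg.Agent.Lib.Helper43R1 Cfsg.Agent.Lib.Helper43P3
open Cfsg.Agent.Lib.Helper9StR1basic Cfsg.Agent.Lib.Helper9StR1conj Cfsg.Agent.Lib.Helper9StR1h

variable {K : Type*} [Field K] {P : Type*} [Group P] (R : R1 K P)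

theorem x_mem_U (a : K) : R.x a ∈ R.U := Subgroup.subset_closure ⟨a, rfl⟩

theorem mem_U {y : P} (hy : y ∈ R.U) : ∃ a, y = R.x a := by
  unfold R1.U at hy
  induction hy using Subgroup.closure_induction with
  | mem y hy => obtain ⟨a, rfl⟩ := hy; exact ⟨a, rfl⟩
  | one => exact ⟨0, (x_zero R).symm⟩
  | mul a b _ _ ha hb =>
    obtain ⟨a, rfl⟩ := ha
    obtain ⟨b, rfl⟩ := hb
    exact ⟨a + b, (R.xadd a b).symm⟩
  | inv a _ ha =>
    obtain ⟨a, rfl⟩ := ha
    exact ⟨-a, x_neg R a⟩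

theorem h_mem_H (t : K) (ht : t ≠ 0) : R.h t ∈ R.H := Subgroup.subset_closure ⟨t, ht, rfl⟩

theorem H_le_norm : R.H ≤ Subgroup.normalizer (R.U : Set P) := by
  unfold R1.H
  rw [Subgroup.closure_le]
  rintro _ ⟨t, ht, rfl⟩
  show R.h t ∈ Subgroup.normalizer (R.U : Set P)
  rw [Subgroup.mem_normalizer_iff]
  intro y
  constructor
  · intro hy
    obtain ⟨a, rfl⟩ := mem_U R hy
    rw [h_x R t a ht]
    exact x_mem_U R _
  · intro hy
    obtain ⟨b, hb⟩ := mem_U R hy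
    have h1 := h_x R t (t⁻¹ ^ 2 * b) ht
    have e : t ^ 2 * (t⁻¹ ^ 2 * b) = b := by field_simp
    rw [e, ← hb] at h1
    have h2 : R.x (t⁻¹ ^ 2 * b) = y := by
      have := mul_right_cancel h1
      exact mul_left_cancel this
    rw [← h2]
    exact x_mem_U R _

theorem w1_H {η : P} (hη : η ∈ R.H) : R.w 1 * η * (R.w 1)⁻¹ ∈ R.H := by
  have hle : R.H ≤ R.H.comap (MulAut.conj (R.w 1)).toMonoidHom := by
    conv_lhs => unfold R1.H
    rw [Subgroup.closure_le]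
    rintro _ ⟨t, ht, rfl⟩
    show R.w 1 * R.h t * (R.w 1)⁻¹ ∈ R.H
    rw [w1_h R t ht]
    exact h_mem_H R _ (inv_ne_zero ht)
  exact hle hη

theorem bn : BN R.U R.H ({1, R.w 1} : Set P) where
  HU := fun η hη y hy => (Subgroup.mem_normalizer_iff.1 (H_le_norm R hη) y).1 hy
  WH := by
    rintro w (rfl | rfl) η hη
    · simpa using hη
    · exact w1_H R hη
  one_mem := Or.inl rfl

theorem w1_sq : R.w 1 * R.w 1 = (R.h (-1))⁻¹ := by
  unfold R1.h
  rw [← w_inv]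
  simp

theorem inC_mul_w
    (x_mul_w : ∀ a : K, a ≠ 0 → R.x a * R.w 1 = R.y a⁻¹ * R.h (-a) * R.x (-a⁻¹))
    {g : P} (hg : InC R.U R.H ({1, R.w 1} : Set P) g) :
    InC R.U R.H ({1, R.w 1} : Set P) (g * R.w 1) := by
  refine (bn R).inC_mul_ts R.x R.y (R.w 1) ?_ ?_ ?_ ?_ (x_mem_U R) (x_zero R) hg
  · intro y hy
    obtain ⟨a, rfl⟩ := mem_U R hy
    exact ⟨a, 1, by simp, by simp⟩
  · intro a ha
    exact ⟨a⁻¹, R.h (-a), h_mem_H R _ (neg_ne_zero.2 ha), -a⁻¹, x_mul_w a ha⟩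
  · rintro w (rfl | rfl)
    · left
      intro a
      simpa using x_mem_U R a
    · right
      intro a
      rw [w_y R 1 a one_ne_zero]
      exact x_mem_U R _
  · rintro w (rfl | rfl)
    · exact ⟨1, R.H.one_mem, R.w 1, Or.inr rfl, by simp⟩
    · exact ⟨(R.h (-1))⁻¹, R.H.inv_mem (h_mem_H R _ (by simp)), 1, Or.inl rfl, by
        rw [w1_sq, mul_one]⟩

/-- the subgroup of elements which stabilise `U H 𝒲 U` under right multiplication -/
def stab : Subgroup P where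
  carrier := {ν | (∀ g, InC R.U R.H ({1, R.w 1} : Set P) g → InC R.U R.H ({1, R.w 1} : Set P) (g * ν)) ∧
    (∀ g, InC R.U R.H ({1, R.w 1} : Set P) g → InC R.U R.H ({1, R.w 1} : Set P) (g * ν⁻¹))}
  one_mem' := by constructor <;> intro g hg <;> simpa using hg
  mul_mem' := by
    rintro a b ⟨ha1, ha2⟩ ⟨hb1, hb2⟩
    constructor
    · intro g hg
      rw [← mul_assoc]
      exact hb1 _ (ha1 _ hg)
    · intro g hg
      rw [_root_.mul_inv_rev, ← mul_assoc]
      exact ha2 _ (hb2 _ hg)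
  inv_mem' := by
    rintro a ⟨ha1, ha2⟩
    refine ⟨ha2, ?_⟩
    intro g hg
    rw [inv_inv]
    exact ha1 g hg

theorem inC_all [Finite K] (hg : R.Gen) (g : P)
    (x_mul_w : ∀ a : K, a ≠ 0 → R.x a * R.w 1 = R.y a⁻¹ * R.h (-a) * R.x (-a⁻¹)) :
    InC R.U R.H ({1, R.w 1} : Set P) g := by
  have hD := bn R
  have hx : ∀ a, R.x a ∈ stab R := fun a =>
    ⟨fun g hg => hD.inC_mul_U hg (x_mem_U R a), fun g hg => hD.inC_mul_U hg (R.U.inv_mem (x_mem_U R a))⟩
  have hw : R.w 1 ∈ stab R := by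
    refine ⟨fun g hg => inC_mul_w R x_mul_w hg, fun g hg => ?_⟩
    have e : g * (R.w 1)⁻¹ = g * R.w 1 * R.h (-1) := by
      have := w1_sq R
      have h2 : R.h (-1) = (R.w 1 * R.w 1)⁻¹ := by rw [this, inv_inv]
      rw [h2]; group
    rw [e]
    exact hD.inC_mul_H (inC_mul_w R x_mul_w hg) (h_mem_H R _ (by simp))
  have hy : ∀ a, R.y a ∈ stab R := by
    intro a
    have h1 := w_x R 1 (-a) one_ne_zero
    have e : -((1 : K)⁻¹ ^ 2 * -a) = a := by simp
    rw [e] at h1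
    rw [← h1]
    exact (stab R).mul_mem ((stab R).mul_mem hw (hx _)) ((stab R).inv_mem hw)
  have hmem : g ∈ stab R := by
    have hle : Subgroup.closure (Set.range R.x ∪ Set.range R.y) ≤ stab R := by
      rw [Subgroup.closure_le]
      rintro _ (⟨a, rfl⟩ | ⟨a, rfl⟩)
      · exact hx a
      · exact hy a
    rw [hg] at hle
    exact hle trivial
  simpa using hmem.1 1 hD.inC_one

end Cfsg.Agent.Lib.Helper72StR1bruhat
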