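import Cfsg.Agent.Lib.Helper43R1Defs

set_option autoImplicit false

/-! Project 143, piece `swx`: conjugation of the root elements `x_ik, x_jk, x_ki, x_kj` by `w_ij(t)`. -/

namespace Cfsg.Agent.Lib.Helper72StSwx

open Cfsg.Agent.Lib.Helper43R1

variable {n : ℕ} {K : Type*} [Field K] {Γ : Type*} [Group Γ] (S : StR n K Γ)

theorem x_zero' (i j : Fin n) (hij : i ≠ j) : S.x i j 0 = 1 := by
  have := S.add i j hij 0 0
  rw [add_zero] at this
  exact (mul_eq_left.1 this.symm)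

theorem x_neg_mul (i j : Fin n) (hij : i ≠ j) (t : K) : S.x i j (-t) * S.x i j t = 1 := by
  rw [← S.add i j hij, neg_add_cancel, x_zero' S i j hij]

theorem x_inv (i j : Fin n) (hij : i ≠ j) (t : K) : (S.x i j t)⁻¹ = S.x i j (-t) :=
  inv_eq_of_mul_eq_one_left (x_neg_mul S i j hij t)

theorem cA (i j k : Fin n) (hij : i ≠ j) (hik : i ≠ k) (hjk : j ≠ k) (s t : K) :
    S.x i j s * S.x j k t * (S.x i j s)⁻¹ = S.x i k (s * t) * S.x j k t := by
  rw [← S.chain i j k hij hjk hik s t]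
  group

theorem cC (i j k : Fin n) (hij : i ≠ j) (hik : i ≠ k) (hjk : j ≠ k) (s u : K) :
    S.x i j s * S.x k i u * (S.x i j s)⁻¹ = S.x k j (-(u * s)) * S.x k i u := by
  rw [← x_inv S k j hjk.symm, ← S.chain k i j hik.symm hij hjk.symm u s]
  group

theorem cB (i j k : Fin n) (hij : i ≠ j) (hik : i ≠ k) (s u : K) :
    S.x i j s * S.x i k u * (S.x i j s)⁻¹ = S.x i k u := by
  rw [(S.comm i j i k hij hik hik hij.symm s u).eq]
  group

theorem cD (i j k : Fin n) (hij : i ≠ j) (hjk : j ≠ k) (s u : K) :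
    S.x i j s * S.x k j u * (S.x i j s)⁻¹ = S.x k j u := by
  rw [(S.comm i j k j hij hjk.symm hij hjk s u).eq]
  group

theorem conj3 (a b g : Γ) : (a * b * a) * g * (a * b * a)⁻¹ = a * (b * (a * g * a⁻¹) * b⁻¹) * a⁻¹ := by
  group

theorem conj_mul' (a b c : Γ) : a * (b * c) * a⁻¹ = (a * b * a⁻¹) * (a * c * a⁻¹) := by group

theorem w_ik (i j k : Fin n) (hij : i ≠ j) (hik : i ≠ k) (hjk : j ≠ k) (t u : K) (ht : t ≠ 0) :
    S.w i j t * S.x i k u * (S.w i j t)⁻¹ = S.x j k (-(t⁻¹ * u)) := by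
  unfold StR.w
  rw [conj3, cB S i j k hij hik, cA S j i k hij.symm hjk hik, conj_mul', cA S i j k hij hik hjk,
    cB S i j k hij hik]
  have e : t * (-t⁻¹ * u) = -u := by field_simp
  rw [e, mul_assoc, (S.comm j k i k hjk hik hjk hik.symm _ _).eq, ← mul_assoc, x_neg_mul S i k hik,
    one_mul, neg_mul]

theorem w_jk (i j k : Fin n) (hij : i ≠ j) (hik : i ≠ k) (hjk : j ≠ k) (t u : K) (ht : t ≠ 0) :
    S.w i j t * S.x j k u * (S.w i j t)⁻¹ = S.x i k (t * u) := by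
  unfold StR.w
  rw [conj3, cA S i j k hij hik hjk, conj_mul' (S.x j i (-t⁻¹)), cA S j i k hij.symm hjk hik,
    cB S j i k hij.symm hjk]
  have e : -t⁻¹ * (t * u) = -u := by field_simp
  rw [e, mul_assoc (S.x j k (-u)), (S.comm i k j k hik hjk hik hjk.symm _ _).eq,
    ← mul_assoc (S.x j k (-u)), x_neg_mul S j k hjk, one_mul, cB S i j k hij hik]

theorem w_ki (i j k : Fin n) (hij : i ≠ j) (hik : i ≠ k) (hjk : j ≠ k) (t u : K) (ht : t ≠ 0) :
    S.w i j t * S.x k i u * (S.w i j t)⁻¹ = S.x k j (-(t * u)) := by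
  unfold StR.w
  rw [conj3, cC S i j k hij hik hjk, conj_mul' (S.x j i (-t⁻¹)), cC S j i k hij.symm hjk hik,
    cD S j i k hij.symm hik]
  have e : -(-(u * t) * -t⁻¹) = -u := by field_simp
  rw [e, mul_assoc (S.x k i (-u)), (S.comm k j k i hjk.symm hik.symm hik.symm hjk _ _).eq,
    ← mul_assoc (S.x k i (-u)), x_neg_mul S k i hik.symm, one_mul, cD S i j k hij hjk, mul_comm u t]

theorem w_kj (i j k : Fin n) (hij : i ≠ j) (hik : i ≠ k) (hjk : j ≠ k) (t u : K) (ht : t ≠ 0) :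
    S.w i j t * S.x k j u * (S.w i j t)⁻¹ = S.x k i (t⁻¹ * u) := by
  unfold StR.w
  rw [conj3, cD S i j k hij hjk, cC S j i k hij.symm hjk hik, conj_mul', cC S i j k hij hik hjk,
    cD S i j k hij hjk]
  have e : -(-(u * -t⁻¹) * t) = -u := by field_simp
  have e2 : -(u * -t⁻¹) = t⁻¹ * u := by ring
  rw [e, e2, mul_assoc, (S.comm k i k j hik.symm hjk.symm hjk.symm hik _ _).eq, ← mul_assoc,
    x_neg_mul S k j hjk.symm, one_mul]

end Cfsg.Agent.Lib.Helper72StSwx
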