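import Cfsg.Prelude.Def_OddOrderLocal
import Cfsg.Agent.Lib.Helper72Idx
import Cfsg.Agent.Lib.Helper30Gen
import Cfsg.Agent.Lib.Helper1FpfSylow
import Cfsg.Agent.Lib.Helper1Fitting
import Cfsg.Agent.Lib.Helper1Basic

set_option autoImplicit false

/-! TI-subgroups that are Hall subgroups of their normalizer (helper72). -/

namespace Cfsg.Agent.Lib.Helper72TIHall

open Subgroup
open scoped Pointwise

variable {G : Type*} [Group G] [Finite G]

theorem mem_normalizer_of_TI {H : Subgroup G} (hTI : Cfsg.IsTISubset (H : Set G)) {g x : G}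
    (hx : x ∈ H) (hx1 : x ≠ 1) (hg : g * x * g⁻¹ ∈ H) : g ∈ normalizer (H : Set G) := by
  by_contra h
  exact hx1 (hTI g h x hx hg)

theorem mem_of_mem_normalizer {H : Subgroup G} {y : G}
    (hy : y ∈ normalizer (H : Set G))
    (ho : (orderOf y).Coprime (H.subgroupOf (normalizer (H : Set G))).index) : y ∈ H := by
  have h1 := Subgroup.pow_index_mem (H.subgroupOf (normalizer (H : Set G)))
    (⟨y, hy⟩ : normalizer (H : Set G))
  rw [mem_subgroupOf] at h1
  exact Cfsg.Agent.Lib.Helper30Gen.mem_of_pow_mem (pow_orderOf_eq_one y) ho h1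

/-- `H` contains a Sylow `p`-subgroup of `G` for every prime `p` dividing its order. -/
theorem exists_sylow_le {H : Subgroup G} (hTI : Cfsg.IsTISubset (H : Set G))
    (hHall : (Nat.card H).Coprime (H.subgroupOf (normalizer (H : Set G))).index)
    (p : ℕ) [hp : Fact p.Prime] (hpH : p ∣ Nat.card H) : ∃ P : Sylow p G, (P : Subgroup G) ≤ H := by
  obtain ⟨x, hx⟩ := exists_prime_orderOf_dvd_card' p hpH
  have hxo : orderOf (x : G) = p := by rw [Subgroup.orderOf_coe]; exact hx
  have hx1 : (x : G) ≠ 1 := by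
    intro h
    rw [h, orderOf_one] at hxo
    exact hp.out.one_lt.ne hxo
  have hxp : IsPGroup p (zpowers (x : G)) := by
    rw [IsPGroup.iff_card]
    exact ⟨1, by rw [Nat.card_zpowers, hxo, pow_one]⟩
  obtain ⟨P, hP⟩ := hxp.exists_le_sylow
  have hpc : p.Coprime (H.subgroupOf (normalizer (H : Set G))).index :=
    Nat.Coprime.coprime_dvd_left hpH hHall
  have hcop : ∀ y ∈ (P : Subgroup G),
      (orderOf y).Coprime (H.subgroupOf (normalizer (H : Set G))).index := by
    intro y hy
    obtain ⟨k, hk⟩ := (IsPGroup.iff_orderOf.mp P.isPGroup') ⟨y, hy⟩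
    rw [Subgroup.orderOf_mk] at hk
    rw [hk]
    exact Nat.Coprime.pow_left k hpc
  have hxP : (x : G) ∈ (P : Subgroup G) := hP (mem_zpowers _)
  have hnt : Nontrivial (P : Subgroup G) :=
    ⟨⟨⟨x, hxP⟩, 1, fun h => hx1 (congrArg Subtype.val h)⟩⟩
  have hcnt : Nontrivial (center (P : Subgroup G)) := P.isPGroup'.center_nontrivial
  obtain ⟨⟨z, hzc⟩, hz1⟩ := exists_ne (1 : center (P : Subgroup G))
  have hz1' : (z : G) ≠ 1 := fun h => hz1 (Subtype.ext (Subtype.ext h))
  have hzcomm : ∀ y ∈ (P : Subgroup G), y * (z : G) = z * y := by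
    intro y hy
    have := (mem_center_iff.mp hzc) ⟨y, hy⟩
    exact congrArg Subtype.val this
  have hzH : (z : G) ∈ H := by
    apply mem_of_mem_normalizer _ (hcop z z.2)
    apply mem_normalizer_of_TI hTI x.2 hx1
    rw [← hzcomm x hxP, mul_inv_cancel_right]
    exact x.2
  refine ⟨P, fun y hy => ?_⟩
  apply mem_of_mem_normalizer _ (hcop y hy)
  apply mem_normalizer_of_TI hTI hzH hz1'
  rw [hzcomm y hy, mul_inv_cancel_right]
  exact hzH

theorem coprime_index {H : Subgroup G} (hTI : Cfsg.IsTISubset (H : Set G))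
    (hHall : (Nat.card H).Coprime (H.subgroupOf (normalizer (H : Set G))).index) :
    (Nat.card H).Coprime H.index := by
  by_contra hcon
  obtain ⟨p, hp, h1, h2⟩ := Nat.Prime.not_coprime_iff_dvd.mp hcon
  have : Fact p.Prime := ⟨hp⟩
  obtain ⟨P, hP⟩ := exists_sylow_le hTI hHall p h1
  exact P.not_dvd_index (dvd_trans h2 (index_dvd_of_le hP))

/-- one step of the `π`-separable chain. -/
theorem sup_normalizer_eq_top_of_step {H L M : Subgroup G} (hTI : Cfsg.IsTISubset (H : Set G))
    (hHall : (Nat.card H).Coprime (H.subgroupOf (normalizer (H : Set G))).index)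
    [L.Normal] [M.Normal] (hML : M ≤ L) (hMc : (Nat.card M).Coprime (Nat.card H))
    (hr : ∀ q : ℕ, q.Prime → q ∣ M.relIndex L → q ∣ Nat.card H) (hne : ¬ L ≤ M) :
    M ⊔ normalizer (H : Set G) = ⊤ := by
  have hHi := coprime_index hTI hHall
  have hr1 : M.relIndex L ≠ 1 := fun h => hne (relIndex_eq_one.mp h)
  obtain ⟨p, hp, hpr⟩ := Nat.exists_prime_and_dvd hr1
  have : Fact p.Prime := ⟨hp⟩
  have hpH := hr p hp hpr
  obtain ⟨P₀, hP₀⟩ := exists_sylow_le hTI hHall p hpH
  have hpL : p ∣ Nat.card L := dvd_trans hpr (relIndex_dvd_card M L)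
  -- a Sylow subgroup of `L`
  obtain ⟨P'⟩ : Nonempty (Sylow p L) := inferInstance
  set U : Subgroup G := (P' : Subgroup L).map L.subtype with hU
  have hUp : IsPGroup p U := P'.isPGroup'.map _
  obtain ⟨P, hUP⟩ := hUp.exists_le_sylow
  obtain ⟨g, hg⟩ := MulAction.exists_smul_eq G P P₀
  have hUH : ∀ u ∈ U, g * u * g⁻¹ ∈ H := by
    intro u hu
    apply hP₀
    have h1 : (MulAut.conj g • u) ∈ MulAut.conj g • (P : Subgroup G) :=
      Subgroup.smul_mem_pointwise_smul u _ _ (hUP hu)
    have h2 : ((g • P : Sylow p G) : Subgroup G) = MulAut.conj g • (P : Subgroup G) := rfl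
    rw [← hg, h2]
    simpa [MulAut.smul_def] using h1
  -- `U` is nontrivial
  have hUne : ∃ u ∈ U, u ≠ 1 := by
    have h1 : p ∣ Nat.card (P' : Subgroup L) := by
      rw [P'.card_eq_multiplicity]
      exact dvd_pow_self p (by
        have : 0 < (Nat.card L).factorization p :=
          hp.factorization_pos_of_dvd Nat.card_pos.ne' hpL
        omega)
    obtain ⟨y, hy⟩ := exists_prime_orderOf_dvd_card' p h1
    refine ⟨((y : L) : G), ⟨(y : L), y.2, rfl⟩, ?_⟩
    intro h
    have : y = 1 := Subtype.ext (Subtype.ext h)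
    rw [this, orderOf_one] at hy
    exact hp.one_lt.ne hy
  obtain ⟨u₀, hu₀, hu₀1⟩ := hUne
  have hNU : ∀ n ∈ normalizer (U : Set G), g * n * g⁻¹ ∈ normalizer (H : Set G) := by
    intro n hn
    apply mem_normalizer_of_TI hTI (hUH u₀ hu₀) (x := g * u₀ * g⁻¹)
    · intro h
      apply hu₀1
      have : u₀ = g⁻¹ * (g * u₀ * g⁻¹) * g := by group
      rw [this, h]; group
    · have h1 : n * u₀ * n⁻¹ ∈ U := (mem_normalizer_iff.mp hn u₀).mp hu₀
      have h2 := hUH _ h1
      have h3 : g * n * g⁻¹ * (g * u₀ * g⁻¹) * (g * n * g⁻¹)⁻¹ = g * (n * u₀ * n⁻¹) * g⁻¹ := by group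
      rw [h3]; exact h2
  have hfr : normalizer (U : Set G) ⊔ L = ⊤ := Sylow.normalizer_sup_eq_top P'
  have hNL : normalizer (H : Set G) ⊔ L = ⊤ := by
    rw [eq_top_iff]
    intro y _
    have h1 : g⁻¹ * y * g ∈ normalizer (U : Set G) ⊔ L := by rw [hfr]; trivial
    rw [Subgroup.mem_sup_of_normal_right] at h1
    obtain ⟨n, hn, l, hl, hnl⟩ := h1
    have h2 : y = (g * n * g⁻¹) * (g * l * g⁻¹) := by
      have : y = g * (g⁻¹ * y * g) * g⁻¹ := by group
      rw [this, ← hnl]; group
    rw [h2]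
    exact mul_mem (mem_sup_left (hNU n hn))
      (mem_sup_right (‹L.Normal›.conj_mem l hl g))
  -- `L ≤ M ⊔ (L ⊓ H)`
  set X : Subgroup G := (L ⊓ H) ⊔ M with hX
  have hXL : X ≤ L := sup_le inf_le_left hML
  have ht1 : X.relIndex L ∣ M.relIndex L :=
    ⟨_, by rw [mul_comm]; exact (relIndex_mul_relIndex M X L le_sup_right hXL).symm⟩
  have ht2 : X.relIndex L ∣ H.index := by
    have h1 : X.relIndex L ∣ (L ⊓ H).relIndex L :=
      ⟨_, by rw [mul_comm]; exact (relIndex_mul_relIndex (L ⊓ H) X L le_sup_left hXL).symm⟩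
    rw [inf_relIndex_left] at h1
    exact dvd_trans h1 (Cfsg.Agent.Lib.Helper72Idx.relIndex_dvd_index H L)
  have ht : X.relIndex L = 1 := by
    by_contra h
    obtain ⟨q, hq, hqt⟩ := Nat.exists_prime_and_dvd h
    have h1 := hr q hq (dvd_trans hqt ht1)
    have h2 := dvd_trans hqt ht2
    exact (Nat.Prime.not_coprime_iff_dvd.mpr ⟨q, hq, h1, h2⟩) hHi
  have hLX : L ≤ X := relIndex_eq_one.mp ht
  rw [eq_top_iff, ← hNL]
  refine sup_le le_sup_right (le_trans hLX (sup_le ?_ le_sup_left))
  exact le_trans inf_le_right (le_trans le_normalizer le_sup_right)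

/-- `G = O_{π'}(G) N_G(H)` for `π`-separable `G`. -/
theorem sup_normalizer_eq_top {H : Subgroup G} (hTI : Cfsg.IsTISubset (H : Set G))
    (hHall : (Nat.card H).Coprime (H.subgroupOf (normalizer (H : Set G))).index)
    (hsep : ∃ (n : ℕ) (M : Fin (n + 1) → Subgroup G), M 0 = ⊥ ∧ M (Fin.last n) = ⊤ ∧ Monotone M ∧
      (∀ i, (M i).Normal) ∧
      ∀ i : Fin n, (∀ q : ℕ, q.Prime → q ∣ (M i.castSucc).relIndex (M i.succ) → q ∣ Nat.card H) ∨
        ((M i.castSucc).relIndex (M i.succ)).Coprime (Nat.card H))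
    (O : Subgroup G) (hO : O = sSup {K : Subgroup G | K.Normal ∧ (Nat.card K).Coprime (Nat.card H)}) :
    O ⊔ normalizer (H : Set G) = ⊤ := by
  obtain ⟨n, M, h0, hlast, hmono, hnorm, hfac⟩ := hsep
  by_contra hne
  have hOc := (Cfsg.Agent.Lib.Helper1Fitting.coprime_card_sSup (Nat.card H)
    {K : Subgroup G | K.Normal ∧ (Nat.card K).Coprime (Nat.card H)} (fun N hN => hN))
  rw [← hO] at hOc
  have key : ∀ i : Fin (n + 1), M i ≤ O := by
    intro i
    induction i using Fin.induction with
    | zero => rw [h0]; exact bot_le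
    | succ i ih =>
      have hle : M i.castSucc ≤ M i.succ := hmono (Fin.castSucc_lt_succ).le
      have hMc : (Nat.card (M i.castSucc)).Coprime (Nat.card H) :=
        Nat.Coprime.coprime_dvd_left (card_dvd_of_le ih) hOc.2
      rcases hfac i with h | h
      · by_contra hcon
        have := hnorm i.castSucc
        have := hnorm i.succ
        have h1 := sup_normalizer_eq_top_of_step hTI hHall hle hMc h
          (fun h2 => hcon (le_trans h2 ih))
        apply hne
        rw [eq_top_iff, ← h1]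
        exact sup_le_sup_right ih _
      · rw [hO]
        apply le_sSup
        refine ⟨hnorm _, ?_⟩
        have h1 : (M i.castSucc).relIndex (M i.succ) * Nat.card (M i.castSucc) =
            Nat.card (M i.succ) := by
          rw [← relIndex_bot_left, ← relIndex_bot_left, mul_comm]
          exact relIndex_mul_relIndex _ _ _ bot_le hle
        rw [← h1]
        exact Nat.Coprime.mul_left h hMc
  apply hne
  rw [eq_top_iff, ← hlast]
  exact le_trans (key _) le_sup_left

/-- abelian subgroups of `H` are cyclic as soon as a normal subgroup of coprime order does not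
normalize `H`. -/
theorem isCyclic_of_abelian {H O : Subgroup G} (hTI : Cfsg.IsTISubset (H : Set G))
    [O.Normal] (hOc : (Nat.card O).Coprime (Nat.card H)) (hON : ¬ O ≤ normalizer (H : Set G))
    (E : Subgroup G) (hEH : E ≤ H) (hE : IsMulCommutative E) : IsCyclic E := by
  by_contra hcyc
  letI : CommGroup E := { (inferInstance : Group E) with mul_comm := hE.is_comm.comm }
  obtain ⟨r, w, z, hr, hw, hz, hw1, hzw⟩ := Cfsg.Agent.Lib.Helper30Gen.exists_rank_two (A := E) hcyc
  have : Fact r.Prime := ⟨hr⟩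
  have hrH : r ∣ Nat.card H := by
    have h1 : orderOf w = r := orderOf_eq_prime hw hw1
    rw [← h1]
    exact dvd_trans (orderOf_dvd_natCard w) (card_dvd_of_le hEH)
  have hcen : ∀ h ∈ H, h ≠ 1 → O ⊓ centralizer {h} ≤ normalizer (H : Set G) := by
    intro h hh hh1 u hu
    have hu2 := mem_centralizer_singleton_iff.mp (Subgroup.mem_inf.mp hu).2
    apply mem_normalizer_of_TI hTI hh hh1
    rw [hu2, mul_inv_cancel_right]
    exact hh
  apply hON
  have hgen := Cfsg.Agent.Lib.Helper30Gen.le_gen (K := O) (r := r) (w := (w : G)) (z := (z : G))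
    (by
      have := mul_comm w z
      exact congrArg Subtype.val this)
    (by exact_mod_cast congrArg Subtype.val hw) (by exact_mod_cast congrArg Subtype.val hz)
    (Nat.Coprime.coprime_dvd_right hrH hOc)
    (by rw [normalizer_eq_top]; trivial) (by rw [normalizer_eq_top]; trivial)
  refine le_trans hgen ?_
  unfold Cfsg.Agent.Lib.Helper30Gen.gen
  refine sup_le (hcen _ (hEH w.2) (fun h => hw1 (Subtype.ext h))) (iSup_le fun j => ?_)
  refine hcen _ (hEH (mul_mem z.2 (pow_mem w.2 j))) (fun h => hzw j (Subtype.ext ?_))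
  exact_mod_cast h

/-- Sylow subgroups of `H` are cyclic if the Sylow 2-subgroups are abelian. -/
theorem sylow_isCyclic {H : Subgroup G}
    (hab : ∀ E : Subgroup G, E ≤ H → IsMulCommutative E → IsCyclic E)
    (h2 : ∀ P : Sylow 2 H, IsMulCommutative (P : Subgroup H))
    (p : ℕ) [Fact p.Prime] (P : Sylow p H) : IsCyclic (P : Subgroup H) := by
  have hab' : ∀ E : Subgroup (P : Subgroup H), IsMulCommutative E → IsCyclic E := by
    intro E hE
    let f : (P : Subgroup H) →* G := H.subtype.comp (P : Subgroup H).subtype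
    have hf : Function.Injective f :=
      H.subtype_injective.comp (P : Subgroup H).subtype_injective
    have h1 : IsCyclic (E.map f) := by
      apply hab
      · rintro _ ⟨x, -, rfl⟩
        exact (x : H).2
      · exact Subgroup.map_isMulCommutative E f 
    exact (E.equivMapOfInjective f hf).isCyclic.mpr h1
  have huniq := Cfsg.Agent.Lib.Helper1FpfSylow.unique_of_abelian_cyclic
    (P := (P : Subgroup H)) P.isPGroup' hab'
  rcases Cfsg.Agent.Lib.Helper1UniqInv.main p P.isPGroup' huniq with h | ⟨h, -⟩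
  · exact h
  · subst h
    have h3 := h2 P
    have h4 : IsMulCommutative (⊤ : Subgroup (P : Subgroup H)) :=
      ⟨⟨fun a b => Subtype.ext (h3.is_comm.comm a.1 b.1)⟩⟩
    have h5 := hab' ⊤ h4
    exact (Subgroup.topEquiv (G := (P : Subgroup H))).isCyclic.mp h5

end Cfsg.Agent.Lib.Helper72TIHall
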