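import Cfsg.Agent.S4117
import Cfsg.Agent.Lib.Helper1Basic

set_option autoImplicit false

/-! Ambient form of S4117 (coprime action on a group with cyclic Sylow subgroups) (helper72). -/

namespace Cfsg.Agent.Lib.Helper72ZAct

open Subgroup

variable {G : Type*} [Group G]

@[reducible] def conjAct (Q H : Subgroup G) (hQ : Q ≤ normalizer (H : Set G)) :
    MulDistribMulAction Q H where
  smul q h := ⟨q * h * q⁻¹, (mem_normalizer_iff.mp (hQ q.2) h).mp h.2⟩
  one_smul h := Subtype.ext (by show ((1 : Q) : G) * h * ((1 : Q) : G)⁻¹ = h; simp)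
  mul_smul a b h := Subtype.ext (by
    show ((a * b : Q) : G) * h * ((a * b : Q) : G)⁻¹ = a * (b * h * (b : G)⁻¹) * (a : G)⁻¹
    rw [Subgroup.coe_mul]; group)
  smul_mul a x y := Subtype.ext (by
    show (a : G) * ((x * y : H) : G) * (a : G)⁻¹ = (a * x * (a : G)⁻¹) * (a * y * (a : G)⁻¹)
    rw [Subgroup.coe_mul]; group)
  smul_one a := Subtype.ext (by show (a : G) * ((1 : H) : G) * (a : G)⁻¹ = 1; simp)

theorem ambient [Finite G] (Q H : Subgroup G) (hQ : Q ≤ normalizer (H : Set G))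
    (hcop : (Nat.card Q).Coprime (Nat.card H))
    (hcyc : ∀ (p : ℕ) [Fact p.Prime] (P : Sylow p H), IsCyclic (P : Subgroup H)) :
    ∃ K : Subgroup G, K ≤ H ∧ H ≤ normalizer (K : Set G) ∧ Q ≤ normalizer (K : Set G) ∧
      (∀ h ∈ H, ∀ q ∈ Q, h * (q * h⁻¹ * q⁻¹) ∈ K) ∧
      K ⊔ (H ⊓ centralizer (Q : Set G)) = H ∧
      (Nat.card K).Coprime (Nat.card (H ⊓ centralizer (Q : Set G) : Subgroup G)) ∧ IsCyclic K := by
  letI := conjAct Q H hQ
  have hsm : ∀ (q : Q) (h : H), ((q • h : H) : G) = q * h * (q : G)⁻¹ := fun _ _ => rfl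
  obtain ⟨h1, h2, h3, h4, h5⟩ := Cfsg.Agent.S4117.result (G := H) (A := Q) hcop hcyc
  set K₀ : Subgroup H := closure {y : H | ∃ (a : Q) (g : H), y = g⁻¹ * a • g} with hK₀
  set D : Subgroup G := H ⊓ centralizer (Q : Set G) with hD
  have hF : ((D.subgroupOf H : Subgroup H) : Set H) = MulAction.fixedPoints Q H := by
    ext x
    rw [SetLike.mem_coe, mem_subgroupOf, MulAction.mem_fixedPoints, hD, Subgroup.mem_inf,
      mem_centralizer_iff]
    constructor
    · rintro ⟨-, h⟩ q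
      apply Subtype.ext
      rw [hsm, h q q.2, mul_inv_cancel_right]
    · intro h
      refine ⟨x.2, fun q hq => ?_⟩
      have := congrArg Subtype.val (h ⟨q, hq⟩)
      rw [hsm] at this
      show q * (x : G) = x * q
      calc q * (x : G) = q * x * q⁻¹ * q := by group
        _ = x * q := by rw [this]
  rw [← hF] at h1 h4 h5
  rw [closure_eq] at h5
  have hcompl : IsComplement' K₀ (D.subgroupOf H) := by
    apply isComplement'_of_disjoint_and_mul_eq_univ
    · rw [disjoint_iff, eq_bot_iff]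
      intro x hx
      have : x ∈ ((K₀ : Set H) ∩ (D.subgroupOf H : Subgroup H)) := hx
      rw [h4] at this
      exact this
    · rw [← normal_mul, h5]; rfl
  have hcard := hcompl.card_mul
  have hDH : D ≤ H := inf_le_left
  have hcD : Nat.card (D.subgroupOf H) = Nat.card D :=
    Cfsg.Agent.Lib.Helper1Basic.card_subgroupOf_of_le hDH
  refine ⟨K₀.map H.subtype, map_subtype_le _, ?_, ?_, ?_, ?_, ?_, ?_⟩
  · apply Cfsg.Agent.Lib.Helper1Basic.le_normalizer_of_forall_conj_mem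
    rintro h hh _ ⟨k, hk, rfl⟩
    exact ⟨⟨h, hh⟩ * k * ⟨h, hh⟩⁻¹, h3.conj_mem k hk _, rfl⟩
  · apply Cfsg.Agent.Lib.Helper1Basic.le_normalizer_of_forall_conj_mem
    rintro q hq _ ⟨k, hk, rfl⟩
    refine ⟨(⟨q, hq⟩ : Q) • k, ?_, rfl⟩
    have hle : K₀.map (MulDistribMulAction.toMonoidHom H (⟨q, hq⟩ : Q)) ≤ K₀ := by
      rw [hK₀, MonoidHom.map_closure, closure_le]
      rintro _ ⟨_, ⟨a, g, rfl⟩, rfl⟩
      apply Subgroup.subset_closure
      refine ⟨⟨q, hq⟩ * a * ⟨q, hq⟩⁻¹, (⟨q, hq⟩ : Q) • g, ?_⟩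
      rw [MulDistribMulAction.toMonoidHom_apply, smul_mul', smul_inv', ← mul_smul, ← mul_smul,
        inv_mul_cancel_right]
    exact hle ⟨k, hk, rfl⟩
  · intro h hh q hq
    refine ⟨(⟨h, hh⟩⁻¹ : H)⁻¹ * (⟨q, hq⟩ : Q) • (⟨h, hh⟩⁻¹ : H),
      Subgroup.subset_closure ⟨_, _, rfl⟩, ?_⟩
    show (((⟨h, hh⟩⁻¹ : H)⁻¹ * (⟨q, hq⟩ : Q) • (⟨h, hh⟩⁻¹ : H) : H) : G) = h * (q * h⁻¹ * q⁻¹)
    rw [Subgroup.coe_mul, hsm]
    simp
  · apply le_antisymm (sup_le (map_subtype_le _) hDH)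
    intro x hx
    have h6 : (⟨x, hx⟩ : H) ∈ K₀ ⊔ D.subgroupOf H := by rw [h5]; trivial
    rw [Subgroup.mem_sup_of_normal_left] at h6
    obtain ⟨k, hk, d, hd, hkd⟩ := h6
    have : x = (k : G) * d := by
      have := congrArg Subtype.val hkd
      exact this.symm
    rw [this]
    exact mul_mem (mem_sup_left ⟨k, hk, rfl⟩) (mem_sup_right (mem_subgroupOf.mp hd))
  · rw [Nat.card_congr (K₀.equivMapOfInjective H.subtype H.subtype_injective).symm.toEquiv, ← hcD]
    have h7 : Nat.card H / Nat.card (D.subgroupOf H) = Nat.card K₀ := by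
      rw [← hcard]
      exact Nat.mul_div_cancel _ Nat.card_pos
    have h8 : Nat.card ((D.subgroupOf H : Subgroup H) : Set H) = Nat.card (D.subgroupOf H) := rfl
    rw [h8, h7] at h1
    exact h1.symm
  · exact (K₀.equivMapOfInjective H.subtype H.subtype_injective).isCyclic.mp h2

end Cfsg.Agent.Lib.Helper72ZAct
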