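import Cfsg.Agent.Lib.Helper96ExtDefs

set_option autoImplicit false

namespace Cfsg.Agent.Lib.Helper73Extrankone

open Module Cfsg.Agent.Lib.Helper96ExtDefs

variable {F V : Type*} [Field F] [AddCommGroup V] [Module F V] [Module.Finite F V]
variable {G : Subgroup (Module.End F V)ˣ}

/-- piece `rankone` -/
theorem hasTv_of_rank_one {β : Module.End F V} (h : InG G (1 + β)) (hβ : β ≠ 0) {c : V}
    (hc : ∀ v, ∃ f : F, β v = f • c) (hcc : β c = 0) : HasTv G := by
  have hc0 : c ≠ 0 := by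
    rintro rfl
    apply hβ
    ext v
    obtain ⟨f, hf⟩ := hc v
    simp [hf]
  obtain ⟨φ, hφ⟩ : ∃ φ : Module.Dual F V, φ c ≠ 0 := by
    by_contra hh
    push Not at hh
    exact hc0 ((Module.forall_dual_apply_eq_zero_iff F c).1 hh)
  let l : Module.Dual F V := (φ c)⁻¹ • φ
  have hl : l c = 1 := by simp [l, hφ]
  have hβe : β = (l.comp β).smulRight c := by
    ext v
    obtain ⟨f, hf⟩ := hc v
    simp [hf, hl]
  refine ⟨l.comp β, c, ?_, hc0, by simp [hcc], ?_⟩
  · intro h0
    apply hβ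
    rw [hβe, h0]
    simp
  · rw [← hβe]
    exact h

end Cfsg.Agent.Lib.Helper73Extrankone
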