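import Cfsg.Agent.Lib.Helper96ExtDefs
import Cfsg.Agent.Lib.Helper73Extrankone

set_option autoImplicit false

namespace Cfsg.Agent.Lib.Helper73ExtC4Common

open Module Cfsg.Agent.Lib.Helper96ExtDefs

variable {F K V : Type*} [Field F] [Field K] [Algebra F K] [AddCommGroup V] [Module F V] [Module K V]
  [IsScalarTower F K V]

theorem F_cases (hF : Nat.card F = 2) (f : F) : f = 0 ∨ f = 1 := by
  obtain ⟨y, _, hy⟩ := (Nat.card_eq_two_iff' (0 : F)).1 hF
  by_cases h : f = 0
  · left; exact h
  · right
    rw [hy f h, hy 1 one_ne_zero]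

theorem F_two (hF : Nat.card F = 2) : (1 : F) + 1 = 0 := by
  rcases F_cases hF ((1 : F) + 1) with h | h
  · exact h
  · exfalso
    have : (1 : F) = 0 := by linear_combination h
    exact one_ne_zero this

theorem K_two (hF : Nat.card F = 2) : (1 : K) + 1 = 0 := by
  have := congrArg (algebraMap F K) (F_two hF)
  simpa using this

theorem V_two (hF : Nat.card F = 2) (z : V) : z + z = 0 := by
  have : ((1 : F) + 1) • z = 0 := by rw [F_two hF, zero_smul]
  simpa [add_smul] using this

theorem V_two' (hF : Nat.card F = 2) (z y : V) : z + (z + y) = y := by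
  rw [← add_assoc, V_two hF, zero_add]

theorem V_neg (hF : Nat.card F = 2) (z : V) : -z = z := by
  rw [neg_eq_iff_add_eq_zero, V_two hF]

theorem norm_one [Finite K] (hF : Nat.card F = 2) (k : K) (hk : k ≠ 0) : Algebra.norm F k = 1 := by
  haveI : Module.Finite F K := Module.Finite.of_finite
  rcases F_cases hF (Algebra.norm F k) with h | h
  · exact absurd (Algebra.norm_eq_zero_iff.1 h) hk
  · exact h

theorem card_K [Finite K] (hF : Nat.card F = 2) (hr : finrank F K = 2) : Nat.card K = 4 := by
  haveI : Module.Finite F K := Module.Finite.of_finite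
  rw [Module.natCard_eq_pow_finrank (K := F), hF, hr]
  norm_num

theorem K_cases [Finite K] (hF : Nat.card F = 2) (hr : finrank F K = 2) {ω : K}
    (hω : ω * ω = ω + 1) (k : K) : k = 0 ∨ k = 1 ∨ k = ω ∨ k = ω + 1 := by
  classical
  haveI := Fintype.ofFinite K
  have h2 := K_two (F := F) (K := K) hF
  have h0 : ω ≠ 0 := by
    rintro rfl
    simp at hω
  have h1 : ω ≠ 1 := by
    rintro rfl
    rw [h2] at hω
    simp at hω
  have h3 : ω + 1 ≠ 0 := by
    intro h
    apply h1
    linear_combination h - h2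
  have hcard : ({0, 1, ω, ω + 1} : Finset K).card = 4 := by
    rw [Finset.card_insert_of_notMem, Finset.card_insert_of_notMem, Finset.card_insert_of_notMem,
      Finset.card_singleton]
    · simp
    · simp only [Finset.mem_insert, Finset.mem_singleton, not_or]
      exact ⟨fun h => h1 h.symm, fun h => h0 (by linear_combination -h)⟩
    · simp only [Finset.mem_insert, Finset.mem_singleton, not_or]
      exact ⟨zero_ne_one, fun h => h0 h.symm, fun h => h3 h.symm⟩
  have huniv : ({0, 1, ω, ω + 1} : Finset K) = Finset.univ := by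
    apply Finset.eq_univ_of_card
    rw [hcard, ← Nat.card_eq_fintype_card, card_K hF hr]
  have := Finset.mem_univ k
  rw [← huniv] at this
  simpa using this

theorem K_smul [Finite K] (hF : Nat.card F = 2) (hr : finrank F K = 2) {ω : K}
    (hω : ω * ω = ω + 1) (k : K) (z : V) : ∃ f g : F, k • z = f • z + g • (ω • z) := by
  rcases K_cases hF hr hω k with rfl | rfl | rfl | rfl
  · exact ⟨0, 0, by simp⟩
  · exact ⟨1, 0, by simp⟩
  · exact ⟨0, 1, by simp⟩
  · exact ⟨1, 1, by simp [add_smul, add_comm]⟩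

theorem F_coords [Finite K] (hF : Nat.card F = 2) (hr : finrank F K = 2) {ω : K}
    (hω : ω * ω = ω + 1) {w p : V} (hspan : ∀ v : V, ∃ x y : K, v = x • w + y • p) (z : V) :
    ∃ f1 f2 f3 f4 : F, z = f1 • w + f2 • (ω • w) + f3 • p + f4 • (ω • p) := by
  obtain ⟨x, y, rfl⟩ := hspan z
  obtain ⟨f1, f2, h1⟩ := K_smul hF hr hω x w
  obtain ⟨f3, f4, h2⟩ := K_smul hF hr hω y p
  exact ⟨f1, f2, f3, f4, by rw [h1, h2]; abel⟩

theorem exists_coords {w p : V} (hspan : ∀ v : V, ∃ x y : K, v = x • w + y • p)
    (hind : ∀ x y : K, x • w + y • p = 0 → x = 0 ∧ y = 0) :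
    ∃ φw φp : Module.Dual K V, φw w = 1 ∧ φw p = 0 ∧ φp w = 0 ∧ φp p = 1 := by
  have hli : LinearIndependent K ![w, p] := LinearIndependent.pair_iff.2 hind
  have hsp : ⊤ ≤ Submodule.span K (Set.range ![w, p]) := by
    intro z _
    obtain ⟨x, y, rfl⟩ := hspan z
    exact Submodule.add_mem _ (Submodule.smul_mem _ _ (Submodule.subset_span ⟨0, rfl⟩))
      (Submodule.smul_mem _ _ (Submodule.subset_span ⟨1, rfl⟩))
  refine ⟨(Basis.mk hli hsp).coord 0, (Basis.mk hli hsp).coord 1, ?_, ?_, ?_, ?_⟩
  · simpa using Basis.mk_coord_apply_eq (hli := hli) (hsp := hsp) 0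
  · simpa using Basis.mk_coord_apply_ne (hli := hli) (hsp := hsp) (i := 0) (j := 1) (by decide)
  · simpa using Basis.mk_coord_apply_ne (hli := hli) (hsp := hsp) (i := 1) (j := 0) (by decide)
  · simpa using Basis.mk_coord_apply_eq (hli := hli) (hsp := hsp) 1

/-- final criterion: an element `x` of `G` whose square minus one has the given values -/
theorem hasTv_of_sq [Finite K] [Finite V] {G : Subgroup (Module.End F V)ˣ}
    (hF : Nat.card F = 2) (hr : finrank F K = 2) {ω : K}
    (hω : ω * ω = ω + 1) {w p : V} (hspan : ∀ v : V, ∃ x y : K, v = x • w + y • p)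
    {x : Module.End F V} (hx : InG G x) {c : V} (hc0 : c ≠ 0)
    {e1 e2 e3 e4 : F}
    (h1 : x (x w) = w + e1 • c) (h2 : x (x (ω • w)) = ω • w + e2 • c)
    (h3 : x (x p) = p + e3 • c) (h4 : x (x (ω • p)) = ω • p + e4 • c)
    (hne : e1 ≠ 0 ∨ e2 ≠ 0 ∨ e3 ≠ 0 ∨ e4 ≠ 0)
    (hcc : x (x c) = c) : HasTv G := by
  haveI : Module.Finite F V := Module.Finite.of_finite
  have hval : ∀ f1 f2 f3 f4 : F, (x * x - 1) (f1 • w + f2 • (ω • w) + f3 • p + f4 • (ω • p))
      = (f1 * e1 + f2 * e2 + f3 * e3 + f4 * e4) • c := by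
    intro f1 f2 f3 f4
    simp only [LinearMap.sub_apply, Module.End.mul_apply, Module.End.one_apply, map_add, map_smul,
      h1, h2, h3, h4]
    module
  apply Cfsg.Agent.Lib.Helper73Extrankone.hasTv_of_rank_one (β := x * x - 1) (c := c)
  · have : 1 + (x * x - 1) = x * x := by abel
    rw [this]
    exact hx.mul hx
  · intro h0
    have hz : ∀ e : F, e • c = 0 → e = 0 := fun e he => (smul_eq_zero.1 he).resolve_right hc0
    rcases hne with h | h | h | h
    · apply h; apply hz
      have := hval 1 0 0 0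
      rw [h0] at this
      simpa using this.symm
    · apply h; apply hz
      have := hval 0 1 0 0
      rw [h0] at this
      simpa using this.symm
    · apply h; apply hz
      have := hval 0 0 1 0
      rw [h0] at this
      simpa using this.symm
    · apply h; apply hz
      have := hval 0 0 0 1
      rw [h0] at this
      simpa using this.symm
  · intro v
    obtain ⟨f1, f2, f3, f4, rfl⟩ := F_coords hF hr hω hspan v
    exact ⟨_, hval f1 f2 f3 f4⟩
  · simp [hcc]

end Cfsg.Agent.Lib.Helper73ExtC4Common
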