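import Cfsg.Agent.Lib.Helper96ExtDefs
import Cfsg.Agent.Lib.Helper73ExtC4Common

set_option autoImplicit false
set_option linter.unusedSimpArgs false

namespace Cfsg.Agent.Lib.Helper73Extc4A

open Module Cfsg.Agent.Lib.Helper96ExtDefs Cfsg.Agent.Lib.Helper73ExtC4Common

variable {F K V : Type*} [Field F] [Field K] [Algebra F K] [AddCommGroup V] [Module F V] [Module K V]
  [IsScalarTower F K V] [Finite F] [Finite K] [Finite V]
variable {G : Subgroup (Module.End F V)ˣ}

/-- piece `c4A` -/
theorem c4A (hF : Nat.card F = 2) (hr : finrank F K = 2) (hbig : Big K G) {ω : K} {w p : V}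
    {ν : Module.End F V} (hω : ω * ω = ω + 1) (hspan : ∀ v : V, ∃ x y : K, v = x • w + y • p)
    (hind : ∀ x y : K, x • w + y • p = 0 → x = 0 ∧ y = 0) (hν : InG G (1 + ν)) (h1 : ν w = 0)
    (h2 : ν p = 0) (h3 : ν (ω • w) = p) (h4 : ν (ω • p) = w + p) : HasTv G := by
  obtain ⟨φw, φp, hww, hwp, hpw, hpp⟩ := exists_coords hspan hind
  have hK2 := K_two (F := F) (K := K) hF
  have hV2 := V_two (F := F) (V := V) hF
  have hV2' := V_two' (F := F) (V := V) hF
  have hωω : ∀ z : V, ω • (ω • z) = ω • z + z := fun z => by
    rw [smul_smul, hω, add_smul, one_smul]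
  have hω1 : ω + 1 ≠ 0 := by
    intro h
    rw [h] at hω
    have h0 : ω = 0 := by simpa using hω
    rw [h0] at h
    simp at h
  have hd2 : InG G (1 + rk F φw (ω • p)) := hbig _ _ (by simp [hwp])
  have hd1 : InG G (1 + rk F (ω • φw + φp) (ω • w + p)) := by
    apply hbig
    apply norm_one hF
    have : 1 + (ω • φw + φp) (ω • w + p) = ω + 1 := by
      simp only [LinearMap.add_apply, LinearMap.smul_apply, map_add, map_smul, hww, hwp, hpw, hpp,
        smul_eq_mul]
      linear_combination hω + hK2
    rw [this]
    exact hω1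
  have hx := (hν.mul hd1).mul hd2
  set x := (1 + ν) * (1 + rk F (ω • φw + φp) (ω • w + p)) * (1 + rk F φw (ω • p)) with hxdef
  have xw : x w = p + ω • p := by
    rw [hxdef]
    simp only [Module.End.mul_apply, LinearMap.add_apply, Module.End.one_apply, rk_apply,
      LinearMap.smul_apply, map_add, map_smul, hww, hwp, hpw, hpp, smul_eq_mul, mul_one, mul_zero,
      add_zero, zero_add, add_smul, mul_smul, one_smul, zero_smul, smul_add, hωω, smul_zero,
      h1, h2, h3, h4, add_assoc, add_comm, add_left_comm, hV2, hV2']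
  have xu : x (ω • w) = w + ω • w + p + ω • p := by
    rw [hxdef]
    simp only [Module.End.mul_apply, LinearMap.add_apply, Module.End.one_apply, rk_apply,
      LinearMap.smul_apply, map_add, map_smul, hww, hwp, hpw, hpp, smul_eq_mul, mul_one, mul_zero,
      add_zero, zero_add, add_smul, mul_smul, one_smul, zero_smul, smul_add, hωω, smul_zero,
      h1, h2, h3, h4, add_assoc, add_comm, add_left_comm, hV2, hV2']
  have xp : x p = ω • w + p := by
    rw [hxdef]
    simp only [Module.End.mul_apply, LinearMap.add_apply, Module.End.one_apply, rk_apply,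
      LinearMap.smul_apply, map_add, map_smul, hww, hwp, hpw, hpp, smul_eq_mul, mul_one, mul_zero,
      add_zero, zero_add, add_smul, mul_smul, one_smul, zero_smul, smul_add, hωω, smul_zero,
      h1, h2, h3, h4, add_assoc, add_comm, add_left_comm, hV2, hV2']
  have xv : x (ω • p) = w + ω • w + p := by
    rw [hxdef]
    simp only [Module.End.mul_apply, LinearMap.add_apply, Module.End.one_apply, rk_apply,
      LinearMap.smul_apply, map_add, map_smul, hww, hwp, hpw, hpp, smul_eq_mul, mul_one, mul_zero,
      add_zero, zero_add, add_smul, mul_smul, one_smul, zero_smul, smul_add, hωω, smul_zero,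
      h1, h2, h3, h4, add_assoc, add_comm, add_left_comm, hV2, hV2']
  have hc0 : w + p + ω • p ≠ 0 := by
    intro h
    have := (hind 1 (1 + ω) (by rw [← h]; simp only [add_smul, one_smul]; abel)).1
    exact one_ne_zero this
  apply hasTv_of_sq hF hr hω hspan hx hc0 (e1 := 0) (e2 := 0) (e3 := 1) (e4 := 1)
  · simp only [map_add, xw, xu, xp, xv, one_smul, zero_smul, add_zero, zero_add,
      add_assoc, add_comm, add_left_comm, hV2, hV2']
  · simp only [map_add, xw, xu, xp, xv, one_smul, zero_smul, add_zero, zero_add,
      add_assoc, add_comm, add_left_comm, hV2, hV2']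
  · simp only [map_add, xw, xu, xp, xv, one_smul, zero_smul, add_zero, zero_add,
      add_assoc, add_comm, add_left_comm, hV2, hV2']
  · simp only [map_add, xw, xu, xp, xv, one_smul, zero_smul, add_zero, zero_add,
      add_assoc, add_comm, add_left_comm, hV2, hV2']
  · right; right; left; exact one_ne_zero
  · simp only [map_add, xw, xu, xp, xv, one_smul, zero_smul, add_zero, zero_add,
      add_assoc, add_comm, add_left_comm, hV2, hV2']

end Cfsg.Agent.Lib.Helper73Extc4A
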