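import Cfsg.Agent.Lib.Helper96ExtDefs

set_option autoImplicit false

namespace Cfsg.Agent.Lib.Helper73Extfinrankpt

open Module Cfsg.Agent.Lib.Helper96ExtDefs

variable {F K V : Type*} [Field F] [Field K] [Algebra F K] [AddCommGroup V] [Module F V] [Module K V]
  [IsScalarTower F K V] [Finite F] [Finite K] [Finite V]

/-- piece `finrankpt` -/
theorem finrank_pt {a : V} (ha : a ≠ 0) : finrank F (pt F K a) = finrank F K := by
  let f : K →ₗ[F] V := ((LinearMap.id : K →ₗ[K] K).smulRight a).restrictScalars F
  have hf : ∀ k, f k = k • a := fun k => rfl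
  have hinj : Function.Injective f := by
    intro x y hxy
    rw [hf, hf] at hxy
    exact smul_left_injective K ha hxy
  have hr : LinearMap.range f = pt F K a := by
    ext v
    rw [mem_pt, LinearMap.mem_range]
    rfl
  rw [← hr, LinearMap.finrank_range_of_inj hinj]

end Cfsg.Agent.Lib.Helper73Extfinrankpt
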