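import Cfsg.Agent.Lib.Helper96ExtDefs
import Cfsg.Agent.Lib.Helper73ExtC4Common
import Cfsg.Agent.Lib.Helper73Extfinrankpt

set_option autoImplicit false

namespace Cfsg.Agent.Lib.Helper73Extc4setup

open Module Cfsg.Agent.Lib.Helper96ExtDefs Cfsg.Agent.Lib.Helper73ExtC4Common

variable {F K V : Type*} [Field F] [Field K] [Algebra F K] [AddCommGroup V] [Module F V] [Module K V]
  [IsScalarTower F K V] [Finite F] [Finite K] [Finite V]
variable {G : Subgroup (Module.End F V)ˣ}

omit [Finite F] in
theorem exists_omega (hF : Nat.card F = 2) (hr : finrank F K = 2) :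
    ∃ ω : K, ω ≠ 0 ∧ ω ≠ 1 ∧ ω * ω = ω + 1 := by
  classical
  haveI := Fintype.ofFinite K
  have hK2 := K_two (F := F) (K := K) hF
  have hc : Fintype.card K = 4 := by rw [← Nat.card_eq_fintype_card, card_K hF hr]
  obtain ⟨ω, -, hω⟩ : ∃ e ∈ (Finset.univ : Finset K), e ∉ ({0, 1} : Finset K) := by
    apply Finset.exists_mem_notMem_of_card_lt_card
    rw [Finset.card_univ, hc]
    exact lt_of_le_of_lt (Finset.card_le_two) (by norm_num)
  simp only [Finset.mem_insert, Finset.mem_singleton, not_or] at hω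
  refine ⟨ω, hω.1, hω.2, ?_⟩
  have h3 : ω ^ 3 = 1 := by
    have := FiniteField.pow_card_sub_one_eq_one ω hω.1
    rwa [hc] at this
  have h4 : (ω - 1) * (ω * ω + ω + 1) = 0 := by linear_combination h3
  rcases mul_eq_zero.1 h4 with h | h
  · exact absurd (sub_eq_zero.1 h) hω.2
  · linear_combination h - (ω + 1) * hK2

/-- piece `c4setup` -/
theorem c4setup (hF : Nat.card F = 2) (hr : finrank F K = 2) (hm : finrank K V = 2) {a : V} (ha : a ≠ 0)
    {P : Submodule F V} {TP : Submodule F (Module.End F V)} (hP : Root G P TP) (hPr : finrank F P = 2)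
    (hne : P ≠ pt F K a) (hW : pt F K a ⊓ P ≠ ⊥) :
    ∃ (ω : K) (w p : V) (ν : Module.End F V), ω * ω = ω + 1 ∧
      (∀ v : V, ∃ x y : K, v = x • w + y • p) ∧ (∀ x y : K, x • w + y • p = 0 → x = 0 ∧ y = 0) ∧
      InG G (1 + ν) ∧ ν w = 0 ∧ ν p = 0 ∧ ν (ω • w) = p ∧ (ν (ω • p) = w + p ∨ ν (ω • p) = w) := by
  haveI : Module.Finite F V := Module.Finite.of_finite
  haveI : Module.Finite K V := Module.Finite.of_finite
  haveI : Module.Finite F K := Module.Finite.of_finite
  obtain ⟨ω, hω0, hω1, hω⟩ := exists_omega (F := F) (K := K) hF hr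
  obtain ⟨w, ⟨hwU, hwP⟩, hw0⟩ := (Submodule.ne_bot_iff _).1 hW
  obtain ⟨k₀, hk₀⟩ := mem_pt.1 hwU
  have hk₀0 : k₀ ≠ 0 := by
    rintro rfl
    rw [zero_smul] at hk₀
    exact hw0 hk₀.symm
  have hU : ∀ k : K, k • w ∈ pt F K a := by
    intro k
    rw [← hk₀, smul_smul]
    exact smul_mem_pt _ _
  obtain ⟨p, hpP, hpU⟩ : ∃ p ∈ P, p ∉ pt F K a := by
    by_contra hh
    push Not at hh
    apply hne
    apply Submodule.eq_of_le_of_finrank_eq hh
    rw [hPr, Cfsg.Agent.Lib.Helper73Extfinrankpt.finrank_pt ha, hr]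
  have hind : ∀ x y : K, x • w + y • p = 0 → x = 0 ∧ y = 0 := by
    intro x y hxy
    have hy : y = 0 := by
      by_contra hy
      apply hpU
      have : p = (-(y⁻¹ * x)) • w := by
        have h1 : y • p = -(x • w) := by rw [eq_neg_iff_add_eq_zero, add_comm]; exact hxy
        calc p = y⁻¹ • (y • p) := by rw [smul_smul, inv_mul_cancel₀ hy, one_smul]
          _ = _ := by rw [h1, smul_neg, smul_smul, neg_smul]
      rw [this]
      exact hU _
    refine ⟨?_, hy⟩
    rw [hy, zero_smul, add_zero] at hxy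
    exact (smul_eq_zero.1 hxy).resolve_right hw0
  have hliK : LinearIndependent K ![w, p] := LinearIndependent.pair_iff.2 hind
  have hspan : ∀ v : V, ∃ x y : K, v = x • w + y • p := by
    intro v
    have h1 := hliK.span_eq_top_of_card_eq_finrank (by simp [hm])
    have h2 : v ∈ Submodule.span K (Set.range ![w, p]) := by rw [h1]; trivial
    have h3 : Set.range ![w, p] = {w, p} := by
      ext z; simp [eq_comm, or_comm]
    rw [h3, Submodule.mem_span_pair] at h2
    obtain ⟨x, y, h⟩ := h2
    exact ⟨x, y, h.symm⟩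
  have hliF : LinearIndependent F ![w, p] := by
    rw [LinearIndependent.pair_iff]
    intro s t hst
    have := hind (algebraMap F K s) (algebraMap F K t) (by
      rw [algebraMap_smul, algebraMap_smul]; exact hst)
    exact ⟨by simpa using this.1, by simpa using this.2⟩
  have hPel : ∀ y ∈ P, ∃ f g : F, y = f • w + g • p := by
    have h3 : Set.range ![w, p] = {w, p} := by
      ext z; simp [eq_comm, or_comm]
    have h1 : Submodule.span F {w, p} = P := by
      apply Submodule.eq_of_le_of_finrank_eq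
      · rw [Submodule.span_le]
        intro z hz
        rcases hz with rfl | rfl
        · exact hwP
        · exact hpP
      · rw [← h3, finrank_span_eq_card hliF, hPr]
        simp
    intro y hy
    rw [← h1, Submodule.mem_span_pair] at hy
    obtain ⟨f, g, h⟩ := hy
    exact ⟨f, g, h.symm⟩
  have hωF : ∀ f : F, ω ≠ algebraMap F K f := by
    intro f
    rcases F_cases hF f with rfl | rfl
    · simpa using hω0
    · simpa using hω1
  have hnotP : ∀ x y : K, (x = ω ∨ y = ω) → x • w + y • p ∉ P := by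
    intro x y hxy hmem
    obtain ⟨f, g, hfg⟩ := hPel _ hmem
    have := hind (x - algebraMap F K f) (y - algebraMap F K g) (by
      rw [sub_smul, sub_smul, algebraMap_smul, algebraMap_smul]
      rw [← sub_eq_zero] at hfg
      rw [← hfg]; abel)
    rcases hxy with h | h
    · exact hωF f (by rw [← h]; exact sub_eq_zero.1 this.1)
    · exact hωF g (by rw [← h]; exact sub_eq_zero.1 this.2)
  have hωw : ω • w ∉ P := by
    have := hnotP ω 0 (Or.inl rfl)
    simpa using this
  obtain ⟨ν, hνT, hν3⟩ := hP.trans (ω • w) hωw p hpP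
  have hp0 : p ≠ 0 := by
    rintro rfl
    exact hpU (Submodule.zero_mem _)
  have hν0 : ν ≠ 0 := by
    rintro rfl
    exact hp0 (by simpa using hν3.symm)
  have hrange : LinearMap.range ν = P := by
    apply le_antisymm
    · rintro _ ⟨v, rfl⟩
      exact hP.range ν hνT v
    · intro y hy
      exact hP.onto ν hνT hν0 y hy
  have hker : P = LinearMap.ker ν := by
    apply Submodule.eq_of_le_of_finrank_eq
    · intro y hy
      exact hP.ker ν hνT y hy
    · have h1 := LinearMap.finrank_range_add_finrank_ker ν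
      have h2 := Module.finrank_mul_finrank F K V
      rw [hrange, hPr, ← h2, hr, hm] at h1
      rw [hPr]
      omega
  refine ⟨ω, w, p, ν, hω, hspan, hind, hP.inG ν hνT, hP.ker ν hνT w hwP, hP.ker ν hνT p hpP, hν3, ?_⟩
  obtain ⟨f, g, hfg⟩ := hPel _ (hP.range ν hνT (ω • p))
  rcases F_cases hF f with rfl | rfl <;> rcases F_cases hF g with rfl | rfl
  · exfalso
    have h1 : ω • p ∈ P := by
      rw [hker, LinearMap.mem_ker, hfg]; simp
    have := hnotP 0 ω (Or.inr rfl)
    simp only [zero_smul, zero_add] at this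
    exact this h1
  · exfalso
    have h1 : (-ω) • w + ω • p ∈ P := by
      rw [hker, LinearMap.mem_ker, neg_smul, map_add, map_neg, hfg, hν3]; simp
    exact hnotP (-ω) ω (Or.inr rfl) h1
  · right; rw [hfg]; simp
  · left; rw [hfg]; simp

end Cfsg.Agent.Lib.Helper73Extc4setup
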