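import Mathlib
import Cfsg.Agent.S4010

set_option autoImplicit false

/-! # Derived length of linear `p`-groups in cross characteristic: the bound `log_p n + 1` -/

namespace Cfsg.Agent.Lib.Helper73LinP

open Cfsg.Agent.S4010

universe u v w

section
variable {K : Type w} [Field K]

theorem sum_finrank_eig {V : Type v} [AddCommGroup V] [Module K V] [FiniteDimensional K V]
    (f : Module.End K V) (s : Finset K) :
    ∑ μ ∈ s, Module.finrank K (f.eigenspace μ) ≤ Module.finrank K V := by
  classical
  have key : ∀ s : Finset K, ∑ μ ∈ s, Module.finrank K (f.eigenspace μ)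
      = Module.finrank K ↥(s.sup f.eigenspace) := by
    intro s
    induction s using Finset.induction_on with
    | empty => rw [Finset.sum_empty, Finset.sup_empty, finrank_bot]
    | insert a s ha ih =>
      rw [Finset.sum_insert ha, Finset.sup_insert, ih]
      have hd : Disjoint (f.eigenspace a) (s.sup f.eigenspace) :=
        (f.eigenspaces_iSupIndep.supIndep' (insert a s)) (Finset.subset_insert a s)
          (Finset.mem_insert_self a s) ha
      have := Submodule.finrank_sup_add_finrank_inf_eq (f.eigenspace a) (s.sup f.eigenspace)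
      rw [hd.eq_bot, finrank_bot, add_zero] at this
      exact this.symm
  rw [key]
  exact Submodule.finrank_le _

/-- the inductive statement -/
def GoalP (K : Type w) [Field K] (p : ℕ) (n : ℕ) : Prop :=
  ∀ (P : Type u) [Group P] [Finite P] (_ : IsPGroup p P) (V : Type v) [AddCommGroup V]
    [Module K V] [FiniteDimensional K V] (_ : Module.finrank K V = n)
    (ρ : P →* Module.End K V), derivedSeries P (Nat.log p n + 1) ≤ ρ.ker

theorem keyP (p n : ℕ) (IH : ∀ m < n, GoalP.{u, v, w} K p m) {Q : Type u} [Group Q] [Finite Q]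
    (hQ : IsPGroup p Q) {V : Type v} [AddCommGroup V] [Module K V] [FiniteDimensional K V]
    (σ : Q →* Module.End K V) (W : Submodule K V) (hW : ∀ g, ∀ v ∈ W, σ g v ∈ W) (k : ℕ)
    (hk : Module.finrank K W = 0 ∨
      (Module.finrank K W < n ∧ Nat.log p (Module.finrank K W) + 1 ≤ k)) :
    ∀ x ∈ derivedSeries Q k, ∀ v ∈ W, σ x v = v := by
  intro x hx v hv
  rcases hk with h0 | ⟨h1, h2⟩
  · have hb : W = ⊥ := Submodule.finrank_eq_zero.1 h0
    rw [hb, Submodule.mem_bot] at hv
    simp [hv]
  · have h3 := IH _ h1 Q hQ W rfl (resRep σ W hW) (derivedSeries_antitone Q h2 hx)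
    rw [MonoidHom.mem_ker] at h3
    have h4 := congrArg (fun f : Module.End K W => ((f ⟨v, hv⟩ : W) : V)) h3
    simpa [resRep] using h4

theorem faithful_stepP [IsAlgClosed K] (p : ℕ) [Fact p.Prime] (hpK : (p : K) ≠ 0) (n : ℕ)
    (IH : ∀ m < n, GoalP.{u, v, w} K p m)
    (P : Type u) [Group P] [Finite P] (hP : IsPGroup p P) (V : Type v) [AddCommGroup V]
    [Module K V] [FiniteDimensional K V] (hV : Module.finrank K V = n)
    (ρ : P →* Module.End K V) (hρ : Function.Injective ρ) :
    derivedSeries P (Nat.log p n + 1) ≤ ρ.ker := by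
  have hp : p.Prime := Fact.out
  by_cases hc : Subgroup.center P = ⊤
  · have h1 : derivedSeries P 1 = ⊥ := by
      rw [derivedSeries_one, commutator_eq_bot_iff_center_eq_top]; exact hc
    calc derivedSeries P (Nat.log p n + 1) ≤ derivedSeries P 1 :=
          derivedSeries_antitone P (by omega)
      _ = ⊥ := h1
      _ ≤ _ := bot_le
  have heig : ∀ g : P, ⨆ μ, Module.End.eigenspace (ρ g) μ = ⊤ := by
    intro g
    obtain ⟨k, hk⟩ := hP g
    apply iSup_eig (ρ g) (p ^ k) (by rw [Nat.cast_pow]; exact pow_ne_zero _ hpK)
    rw [← map_pow, hk, map_one]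
  by_cases hs : ∀ z ∈ Subgroup.center P, ∃ c : K, ρ z = c • 1
  · -- all central elements are scalar
    obtain ⟨a, N, ha1, ha2, hN, hcomm⟩ := exists_N p hP hc
    obtain ⟨g0, hg0⟩ : ∃ g0, g0 * a ≠ a * g0 := by
      by_contra hh
      push Not at hh
      exact ha1 (Subgroup.mem_center_iff.2 hh)
    obtain ⟨c, hcz⟩ := hs _ (ha2 g0)
    have hc1 : c ≠ 1 := by
      rintro rfl
      rw [one_smul, ← map_one ρ] at hcz
      have h1 := hρ hcz
      apply hg0
      calc g0 * a = (a * g0 * a⁻¹ * g0⁻¹)⁻¹ * (a * g0) := by group
        _ = a * g0 := by rw [h1]; simp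
    have hrel : ∀ v, ρ a (ρ g0 v) = c • ρ g0 (ρ a v) := by
      intro v
      have e : a * g0 = (a * g0 * a⁻¹ * g0⁻¹) * (g0 * a) := by group
      rw [← rho_mul_apply, e, rho_mul_apply, hcz, rho_mul_apply]
      simp
    have hN2 : derivedSeries N (Nat.log p n) ≤ (ρ.comp N.subtype).ker := by
      apply le_ker_of_iSup _ (heig a)
      intro μ
      apply keyP p n IH (hP.to_subgroup N) (ρ.comp N.subtype)
        (Module.End.eigenspace (ρ a) μ)
      · intro x v hv
        rw [Module.End.mem_eigenspace_iff] at hv ⊢
        change ρ a (ρ x v) = μ • ρ x v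
        rw [← rho_mul_apply, hN x x.2, rho_mul_apply, hv, map_smul]
      · by_cases h0 : Module.finrank K (Module.End.eigenspace (ρ a) μ) = 0
        · left; exact h0
        · right
          have hμ : μ ≠ 0 := by
            rintro rfl
            apply h0
            rw [Submodule.finrank_eq_zero, eq_bot_iff]
            intro v hv
            rw [Module.End.mem_eigenspace_iff, zero_smul] at hv
            have := rho_injective ρ a (hv.trans (map_zero _).symm)
            simpa using this
          -- a nonzero vector
          obtain ⟨v0, hv0, hv0ne⟩ : ∃ v0 ∈ Module.End.eigenspace (ρ a) μ, v0 ≠ 0 := by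
            by_contra hh
            push Not at hh
            apply h0
            rw [Submodule.finrank_eq_zero, eq_bot_iff]
            intro v hv
            exact hh v hv
          -- order of c
          obtain ⟨k, hk⟩ := hP (a * g0 * a⁻¹ * g0⁻¹)
          have hck : c ^ (p ^ k) = 1 := by
            have h1 : ρ (a * g0 * a⁻¹ * g0⁻¹) ^ (p ^ k) = 1 := by rw [← map_pow, hk, map_one]
            rw [hcz, smul_pow, one_pow] at h1
            have h2 := congrArg (fun f : Module.End K V => f v0) h1
            simp only [LinearMap.smul_apply, Module.End.one_apply] at h2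
            have h3 : (c ^ (p ^ k) - 1) • v0 = 0 := by rw [sub_smul, h2, one_smul, sub_self]
            exact sub_eq_zero.1 ((smul_eq_zero.1 h3).resolve_right hv0ne)
          have hord : p ≤ orderOf c := by
            obtain ⟨l, _, hl⟩ := (Nat.dvd_prime_pow hp).1 (orderOf_dvd_of_pow_eq_one hck)
            rcases Nat.eq_zero_or_pos l with rfl | hlpos
            · rw [pow_zero, orderOf_eq_one_iff] at hl
              exact absurd hl hc1
            · rw [hl]
              calc p = p ^ 1 := (pow_one p).symm
                _ ≤ p ^ l := Nat.pow_le_pow_right hp.pos hlpos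
          have hmaps : ∀ ν, ∀ v ∈ Module.End.eigenspace (ρ a) ν,
              ρ g0 v ∈ Module.End.eigenspace (ρ a) (c * ν) := by
            intro ν v hv
            rw [Module.End.mem_eigenspace_iff] at hv ⊢
            rw [hrel, hv, map_smul, smul_smul]
          have hle : ∀ ν, Module.finrank K (Module.End.eigenspace (ρ a) ν)
              ≤ Module.finrank K (Module.End.eigenspace (ρ a) (c * ν)) := by
            intro ν
            apply LinearMap.finrank_le_finrank_of_injective (f := (ρ g0).restrict (hmaps ν))
            intro x y hxy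
            apply Subtype.ext
            apply rho_injective ρ g0
            exact congrArg Subtype.val hxy
          have hle' : ∀ i : ℕ, Module.finrank K (Module.End.eigenspace (ρ a) μ)
              ≤ Module.finrank K (Module.End.eigenspace (ρ a) (c ^ i * μ)) := by
            intro i
            induction i with
            | zero => rw [pow_zero, one_mul]
            | succ i ih =>
              refine ih.trans ?_
              have := hle (c ^ i * μ)
              rwa [← mul_assoc, ← pow_succ'] at this
          classical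
          have hinj : Set.InjOn (fun i : ℕ => c ^ i * μ) (Finset.range p : Set ℕ) := by
            intro i hi j hj hij
            have h1 : c ^ i = c ^ j := mul_right_cancel₀ hμ hij
            apply pow_injOn_Iio_orderOf _ _ h1
            · exact lt_of_lt_of_le (Finset.mem_range.1 hi) hord
            · exact lt_of_lt_of_le (Finset.mem_range.1 hj) hord
          have hsum := sum_finrank_eig (ρ a) ((Finset.range p).image (fun i : ℕ => c ^ i * μ))
          rw [Finset.sum_image hinj, hV] at hsum
          have hsum2 : p * Module.finrank K (Module.End.eigenspace (ρ a) μ) ≤ n := by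
            refine le_trans ?_ hsum
            have := Finset.card_nsmul_le_sum (Finset.range p)
              (fun i : ℕ => Module.finrank K (Module.End.eigenspace (ρ a) (c ^ i * μ)))
              (Module.finrank K (Module.End.eigenspace (ρ a) μ)) (fun i _ => hle' i)
            simpa using this
          have hp2 := hp.two_le
          refine ⟨?_, ?_⟩
          · have h1 : 2 * Module.finrank K (Module.End.eigenspace (ρ a) μ)
                ≤ p * Module.finrank K (Module.End.eigenspace (ρ a) μ) :=
              Nat.mul_le_mul_right _ hp2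
            omega
          · calc _ = Nat.log p (Module.finrank K (Module.End.eigenspace (ρ a) μ) * p) :=
                  (Nat.log_mul_base hp.one_lt h0).symm
              _ ≤ Nat.log p n := Nat.log_mono_right (by rw [mul_comm]; exact hsum2)
    intro x hx
    have hx' : x ∈ derivedSeries P (1 + Nat.log p n) := by rwa [add_comm]
    obtain ⟨y, hy, rfl⟩ := derived_add N 1 hcomm (Nat.log p n) hx'
    exact hN2 hy
  · -- a non-scalar central element
    push Not at hs
    obtain ⟨z, hz, hns⟩ := hs
    apply le_ker_of_iSup _ (heig z)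
    intro μ
    apply keyP p n IH hP ρ (Module.End.eigenspace (ρ z) μ)
    · intro g v hv
      rw [Module.End.mem_eigenspace_iff] at hv ⊢
      rw [← rho_mul_apply, ← Subgroup.mem_center_iff.1 hz g, rho_mul_apply, hv, map_smul]
    · right
      have hlt : Module.finrank K (Module.End.eigenspace (ρ z) μ) < n := by
        rw [← hV]
        apply Submodule.finrank_lt
        intro htop
        apply hns μ
        ext v
        have hv : v ∈ Module.End.eigenspace (ρ z) μ := htop ▸ Submodule.mem_top
        rw [Module.End.mem_eigenspace_iff] at hv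
        simpa using hv
      exact ⟨hlt, by have := Nat.log_mono_right (b := p) hlt.le; omega⟩

theorem lift_injective {P : Type u} [Group P] {M : Type*} [Monoid M] (ρ : P →* M) :
    Function.Injective (QuotientGroup.lift ρ.ker ρ (fun x hx => hx)) := by
  intro a b
  induction a using QuotientGroup.induction_on with
  | H a =>
    induction b using QuotientGroup.induction_on with
    | H b =>
      intro hab
      rw [QuotientGroup.lift_mk, QuotientGroup.lift_mk] at hab
      rw [QuotientGroup.eq, MonoidHom.mem_ker, map_mul, ← hab, ← map_mul]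
      simp

/-- reduction to the faithful case -/
theorem le_ker_of_quot {P : Type u} [Group P] {M : Type*} [Monoid M] (ρ : P →* M) (j : ℕ)
    (h : derivedSeries (P ⧸ ρ.ker) j ≤ (QuotientGroup.lift ρ.ker ρ (fun x hx => hx)).ker) :
    derivedSeries P j ≤ ρ.ker := by
  intro x hx
  have h2 : (QuotientGroup.mk' ρ.ker) x ∈ derivedSeries (P ⧸ ρ.ker) j :=
    map_derivedSeries_le_derivedSeries (QuotientGroup.mk' ρ.ker) _
      (Subgroup.mem_map_of_mem _ hx)
  have h3 := h h2
  rw [MonoidHom.mem_ker] at h3 ⊢
  simpa using h3

theorem caseAP [IsAlgClosed K] (p : ℕ) [Fact p.Prime] (hpK : (p : K) ≠ 0) (n : ℕ) :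
    GoalP.{u, v, w} K p n := by
  induction n using Nat.strong_induction_on with
  | _ n IH =>
    intro P _ _ hP V _ _ _ hV ρ
    apply le_ker_of_quot
    exact faithful_stepP p hpK n IH (P ⧸ ρ.ker) (hP.to_quotient _) V hV
      (QuotientGroup.lift ρ.ker ρ (fun x hx => hx)) (lift_injective ρ)

end


/-- arbitrary field of characteristic different from `p` -/
theorem anyField (E : Type w) [Field E] (p : ℕ) [Fact p.Prime] (hpE : (p : E) ≠ 0)
    {P : Type u} [Group P] [Finite P] (hP : IsPGroup p P) {W : Type v} [AddCommGroup W]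
    [Module E W] [FiniteDimensional E W] (σ : P →* Module.End E W) :
    derivedSeries P (Nat.log p (Module.finrank E W) + 1) ≤ σ.ker := by
  classical
  let K := AlgebraicClosure E
  let b := Module.finBasis E W
  let φ1 : Module.End E W →* Matrix (Fin (Module.finrank E W)) (Fin (Module.finrank E W)) E :=
    MonoidHomClass.toMonoidHom (LinearMap.toMatrixAlgEquiv b)
  let φ2 : Matrix (Fin (Module.finrank E W)) (Fin (Module.finrank E W)) E →*
      Matrix (Fin (Module.finrank E W)) (Fin (Module.finrank E W)) K :=
    MonoidHomClass.toMonoidHom (algebraMap E K).mapMatrix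
  let φ3 : Matrix (Fin (Module.finrank E W)) (Fin (Module.finrank E W)) K →*
      Module.End K (Fin (Module.finrank E W) → K) :=
    MonoidHomClass.toMonoidHom (Matrix.toLinAlgEquiv' : Matrix (Fin (Module.finrank E W))
      (Fin (Module.finrank E W)) K ≃ₐ[K] _)
  let φ : Module.End E W →* Module.End K (Fin (Module.finrank E W) → K) :=
    φ3.comp (φ2.comp φ1)
  have hφ : Function.Injective φ := by
    intro x y hxy
    have h1 := (Matrix.toLinAlgEquiv' : Matrix (Fin (Module.finrank E W))
      (Fin (Module.finrank E W)) K ≃ₐ[K] _).injective hxy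
    have h2 : LinearMap.toMatrixAlgEquiv b x = LinearMap.toMatrixAlgEquiv b y :=
      Matrix.map_injective (algebraMap E K).injective h1
    exact (LinearMap.toMatrixAlgEquiv b).injective h2
  have hpK : (p : K) ≠ 0 := by
    intro h
    apply hpE
    apply (algebraMap E K).injective
    rw [map_natCast, map_zero]
    exact h
  have h := caseAP.{u, w, w} (K := K) p hpK (Module.finrank E W) P hP
    (Fin (Module.finrank E W) → K) (by simp) (φ.comp σ)
  intro x hx
  have h1 := h hx
  rw [MonoidHom.mem_ker] at h1 ⊢
  apply hφ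
  rw [map_one]
  exact h1

/-- a representation commuting with the action of an extension field -/
theorem viaE {F : Type*} [Field F] {E : Type*} [Field E] [Algebra F E] [FiniteDimensional F E]
    (p : ℕ) [Fact p.Prime] (hpE : (p : E) ≠ 0) {P : Type*} [Group P] [Finite P]
    (hP : IsPGroup p P) {W : Type*} [AddCommGroup W] [Module F W] [FiniteDimensional F W]
    (φ : E →ₐ[F] Module.End F W) (σ : P →* Module.End F W)
    (hcomm : ∀ g x, σ g * φ x = φ x * σ g) :
    derivedSeries P (Nat.log p (Module.finrank F W / Module.finrank F E) + 1) ≤ σ.ker := by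
  letI : Module E W := Module.compHom W (φ : E →+* Module.End F W)
  have hsmul : ∀ (x : E) (w : W), x • w = φ x w := fun _ _ => rfl
  haveI : IsScalarTower F E W := IsScalarTower.of_algebraMap_smul (fun r w => by
    rw [hsmul, φ.commutes]; rfl)
  haveI : FiniteDimensional E W := Module.Finite.of_restrictScalars_finite F E W
  let σE : P →* Module.End E W :=
    { toFun := fun g =>
        { toFun := σ g
          map_add' := map_add _
          map_smul' := fun x w => by
            simp only [RingHom.id_apply, hsmul]
            exact LinearMap.congr_fun (hcomm g x) w }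
      map_one' := by ext w; simp
      map_mul' := fun a b => by ext w; simp }
  have h1 := anyField E p hpE hP σE
  have h2 : Module.finrank F E * Module.finrank E W = Module.finrank F W :=
    Module.finrank_mul_finrank F E W
  have h3 : Module.finrank E W = Module.finrank F W / Module.finrank F E := by
    rw [← h2, Nat.mul_div_cancel_left _ Module.finrank_pos]
  rw [h3] at h1
  intro x hx
  have h4 := h1 hx
  rw [MonoidHom.mem_ker] at h4 ⊢
  ext w
  exact congrArg (fun f : Module.End E W => f w) h4

open Polynomial in
theorem comm_aeval {F : Type*} [Field F] {V : Type*} [AddCommGroup V] [Module F V]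
    (A B : Module.End F V) (h : A * B = B * A) (f : F[X]) :
    A * aeval B f = aeval B f * A := by
  induction f using Polynomial.induction_on' with
  | add p q hp hq => rw [map_add, mul_add, add_mul, hp, hq]
  | monomial n a =>
    rw [aeval_monomial]
    have h1 : Commute A (B ^ n) := Commute.pow_right h n
    have h2 : Commute A (algebraMap F (Module.End F V) a) := (Algebra.commutes a A).symm
    exact h2.mul_right h1

open Polynomial in
theorem aeval_restrict {F : Type*} [Field F] {V : Type*} [AddCommGroup V] [Module F V]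
    (T : Module.End F V) (W : Submodule F V) (hW : ∀ v ∈ W, T v ∈ W) (f : F[X]) (w : W) :
    ((aeval (T.restrict hW) f w : W) : V) = aeval T f (w : V) := by
  induction f using Polynomial.induction_on' with
  | add p q hp hq => simp [map_add, hp, hq]
  | monomial n a =>
    rw [aeval_monomial, aeval_monomial]
    have h1 : ∀ (n : ℕ) (w : W), (((T.restrict hW) ^ n) w : V) = (T ^ n) (w : V) := by
      intro n
      induction n with
      | zero => intro w; simp
      | succ n ih =>
        intro w
        rw [pow_succ, pow_succ, Module.End.mul_apply, Module.End.mul_apply, ih]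
        rfl
    simp [h1]


theorem res_apply {P : Type*} [Group P] {K : Type*} [Field K] {V : Type*} [AddCommGroup V]
    [Module K V] (ρ : P →* Module.End K V) (W : Submodule K V)
    (hW : ∀ g, ∀ v ∈ W, ρ g v ∈ W) {x : P} (hx : x ∈ (resRep ρ W hW).ker) {v : V} (hv : v ∈ W) :
    ρ x v = v := by
  rw [MonoidHom.mem_ker] at hx
  have h4 := congrArg (fun f : Module.End K W => ((f ⟨v, hv⟩ : W) : V)) hx
  simpa [resRep] using h4

section finiteField
variable {F : Type w} [Field F] [Fintype F]

theorem p_ne_zero (p : ℕ) [Fact p.Prime] (hpq : ¬ p ∣ Fintype.card F) : (p : F) ≠ 0 := by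
  intro h
  apply hpq
  have h1 : ringChar F ∣ p := (ringChar.spec F p).1 h
  have h2 : ringChar F ∣ Fintype.card F := (ringChar.spec F _).1 (FiniteField.cast_card_eq_zero F)
  rcases (Nat.dvd_prime Fact.out).1 h1 with h3 | h3
  · exact absurd h3 CharP.ringChar_ne_one
  · rwa [h3] at h2

theorem e_pos (p : ℕ) [Fact p.Prime] (q : ℕ) (hpq : ¬ p ∣ q) : 0 < orderOf (q : ZMod p) := by
  have h0 : (q : ZMod p) ≠ 0 := fun h => hpq ((ZMod.natCast_eq_zero_iff q p).1 h)
  rw [orderOf_pos_iff, isOfFinOrder_iff_pow_eq_one]
  have hp : p.Prime := Fact.out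
  exact ⟨p - 1, by have := hp.two_le; omega, ZMod.pow_card_sub_one_eq_one h0⟩

theorem e_le (p : ℕ) [Fact p.Prime] (E : Type*) [Field E] [Algebra F E] [FiniteDimensional F E]
    (r : E) (hr1 : r ≠ 1) (k : ℕ) (hrk : r ^ (p ^ k) = 1) :
    orderOf ((Fintype.card F : ℕ) : ZMod p) ≤ Module.finrank F E := by
  have hp : p.Prime := Fact.out
  haveI : Finite E := Module.finite_of_finite F
  haveI := Fintype.ofFinite E
  have hcard : Fintype.card E = Fintype.card F ^ Module.finrank F E := Module.card_eq_pow_finrank
  have hr0 : r ≠ 0 := by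
    rintro rfl
    rw [zero_pow (pow_ne_zero _ hp.ne_zero)] at hrk
    exact zero_ne_one hrk
  have h1 := FiniteField.pow_card_sub_one_eq_one r hr0
  have hpo : p ∣ orderOf r := by
    obtain ⟨l, _, hl⟩ := (Nat.dvd_prime_pow hp).1 (orderOf_dvd_of_pow_eq_one hrk)
    rcases Nat.eq_zero_or_pos l with rfl | hlpos
    · rw [pow_zero, orderOf_eq_one_iff] at hl
      exact absurd hl hr1
    · rw [hl]
      exact dvd_pow_self p hlpos.ne'
  have h2 : p ∣ Fintype.card F ^ Module.finrank F E - 1 := by
    rw [← hcard]
    exact hpo.trans (orderOf_dvd_of_pow_eq_one h1)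
  have h3 : ((Fintype.card F : ℕ) : ZMod p) ^ Module.finrank F E = 1 := by
    have h4 := (ZMod.natCast_eq_zero_iff _ p).2 h2
    rw [Nat.cast_sub (Nat.one_le_pow _ _ Fintype.card_pos)] at h4
    push_cast at h4
    exact sub_eq_zero.1 h4
  exact Nat.le_of_dvd Module.finrank_pos (orderOf_dvd_of_pow_eq_one h3)

/-- the inductive statement over the finite field -/
def GoalF (F : Type w) [Field F] (p e n : ℕ) : Prop :=
  ∀ (P : Type u) [Group P] [Finite P] (_ : IsPGroup p P) (V : Type v) [AddCommGroup V]
    [Module F V] [FiniteDimensional F V] (_ : Module.finrank F V = n)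
    (ρ : P →* Module.End F V), derivedSeries P (Nat.log p (n / e) + 1) ≤ ρ.ker

open Polynomial in
theorem irrF (p : ℕ) [Fact p.Prime] (hpq : ¬ p ∣ Fintype.card F) (e : ℕ)
    (he : e = orderOf ((Fintype.card F : ℕ) : ZMod p)) (n : ℕ)
    (IH : ∀ m < n, GoalF.{u, v, w} F p e m)
    (P : Type u) [Group P] [Finite P] (hP : IsPGroup p P) (V : Type v) [AddCommGroup V]
    [Module F V] [FiniteDimensional F V] (hV : Module.finrank F V = n)
    (ρ : P →* Module.End F V) (z : P) (hz : ∀ g, g * z = z * g) (hT1 : ρ z ≠ 1) (k : ℕ)
    (i : F[X]) (hi : Irreducible i) (hd : i ∣ X ^ (p ^ k) - C 1) :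
    ∀ x ∈ derivedSeries P (Nat.log p (n / e) + 1), ∀ v ∈ LinearMap.ker (aeval (ρ z) i),
      ρ x v = v := by
  have he0 : 0 < e := he ▸ e_pos p _ hpq
  have hcomm : ∀ g, ρ g * ρ z = ρ z * ρ g := fun g => by rw [← map_mul, ← map_mul, hz g]
  have hWinv : ∀ g, ∀ v ∈ LinearMap.ker (aeval (ρ z) i), ρ g v ∈ LinearMap.ker (aeval (ρ z) i) := by
    intro g v hv
    rw [LinearMap.mem_ker] at hv ⊢
    have h1 := LinearMap.congr_fun (comm_aeval (ρ g) (ρ z) (hcomm g) i) v
    rw [Module.End.mul_apply, Module.End.mul_apply, hv, map_zero] at h1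
    exact h1.symm
  intro x hx v hv
  by_cases hX : i ∣ X - C 1
  · have hlt : Module.finrank F (LinearMap.ker (aeval (ρ z) i)) < n := by
      rw [← hV]
      apply Submodule.finrank_lt
      intro htop
      apply hT1
      obtain ⟨u, hu⟩ := hX
      ext w
      have hw : w ∈ LinearMap.ker (aeval (ρ z) i) := htop ▸ Submodule.mem_top
      rw [LinearMap.mem_ker] at hw
      have h1 : aeval (ρ z) (X - C 1 : F[X]) w = 0 := by
        rw [hu, mul_comm, map_mul, Module.End.mul_apply, hw, map_zero]
      simp only [map_sub, aeval_X, aeval_C, map_one, LinearMap.sub_apply,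
        Module.End.one_apply] at h1
      rw [Module.End.one_apply]
      exact sub_eq_zero.1 h1
    have h2 := IH _ hlt P hP _ rfl (resRep ρ _ hWinv)
    refine res_apply ρ _ hWinv (h2 (derivedSeries_antitone P ?_ hx)) hv
    have := Nat.log_mono_right (b := p) (Nat.div_le_div_right (c := e) hlt.le)
    omega
  · haveI : Fact (Irreducible i) := ⟨hi⟩
    haveI : FiniteDimensional F (AdjoinRoot i) := (AdjoinRoot.powerBasis hi.ne_zero).finite
    set W := LinearMap.ker (aeval (ρ z) i) with hWdef
    have hTW0 : aeval ((ρ z).restrict (hWinv z)) i = 0 := by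
      ext w
      rw [aeval_restrict]
      exact w.2
    let φ : AdjoinRoot i →ₐ[F] Module.End F W :=
      Ideal.Quotient.liftₐ (Ideal.span {i}) (aeval ((ρ z).restrict (hWinv z))) (by
        intro a ha
        obtain ⟨b, rfl⟩ := Ideal.mem_span_singleton.1 ha
        rw [map_mul, hTW0, zero_mul])
    have hφ : ∀ h : F[X], φ (AdjoinRoot.mk i h) = aeval ((ρ z).restrict (hWinv z)) h := fun h => rfl
    have hc2 : ∀ g y, resRep ρ W hWinv g * φ y = φ y * resRep ρ W hWinv g := by
      intro g y
      induction y using AdjoinRoot.induction_on with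
      | ih h =>
        rw [hφ]
        apply comm_aeval
        ext w
        exact LinearMap.congr_fun (hcomm g) (w : V)
    have hpE : (p : AdjoinRoot i) ≠ 0 := by
      intro h
      apply p_ne_zero (F := F) p hpq
      apply (algebraMap F (AdjoinRoot i)).injective
      rw [map_natCast, map_zero]
      exact h
    have h1 := viaE p hpE hP φ (resRep ρ W hWinv) hc2
    have hle : e ≤ Module.finrank F (AdjoinRoot i) := by
      rw [he]
      apply e_le p (AdjoinRoot i) (AdjoinRoot.root i) _ k
      · have := AdjoinRoot.mk_eq_zero.2 hd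
        rw [map_sub, map_pow, AdjoinRoot.mk_X, AdjoinRoot.mk_C, map_one] at this
        exact sub_eq_zero.1 this
      · intro h
        apply hX
        rw [← AdjoinRoot.mk_eq_zero, map_sub, AdjoinRoot.mk_X, AdjoinRoot.mk_C, map_one, h,
          sub_self]
    refine res_apply ρ _ hWinv (h1 (derivedSeries_antitone P ?_ hx)) hv
    have h3 : Module.finrank F W ≤ n := hV ▸ Submodule.finrank_le W
    have := Nat.log_mono_right (b := p) (Nat.div_le_div h3 hle he0.ne')
    omega

open Polynomial in
theorem faithful_stepF (p : ℕ) [Fact p.Prime] (hpq : ¬ p ∣ Fintype.card F) (e : ℕ)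
    (he : e = orderOf ((Fintype.card F : ℕ) : ZMod p)) (n : ℕ)
    (IH : ∀ m < n, GoalF.{u, v, w} F p e m)
    (P : Type u) [Group P] [Finite P] (hP : IsPGroup p P) (V : Type v) [AddCommGroup V]
    [Module F V] [FiniteDimensional F V] (hV : Module.finrank F V = n)
    (ρ : P →* Module.End F V) (hρ : Function.Injective ρ) :
    derivedSeries P (Nat.log p (n / e) + 1) ≤ ρ.ker := by
  by_cases hsub : Subsingleton P
  · intro x _
    rw [Subsingleton.elim x 1]
    exact one_mem _
  rw [not_subsingleton_iff_nontrivial] at hsub
  haveI := hsub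
  haveI := hP.center_nontrivial
  obtain ⟨⟨z, hz⟩, hz1⟩ := exists_ne (1 : Subgroup.center P)
  have hz1' : z ≠ 1 := fun h => hz1 (Subtype.ext h)
  obtain ⟨k, hk⟩ := hP z
  have hT1 : ρ z ≠ 1 := fun h => hz1' (hρ (h.trans (map_one ρ).symm))
  have hTk : ρ z ^ (p ^ k) = 1 := by rw [← map_pow, hk, map_one]
  have hsq : Squarefree (X ^ (p ^ k) - C 1 : F[X]) :=
    (separable_X_pow_sub_C (1 : F) (by
      rw [Nat.cast_pow]; exact pow_ne_zero _ (p_ne_zero p hpq)) one_ne_zero).squarefree
  have claim : ∀ h : F[X], h ∣ X ^ (p ^ k) - C 1 →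
      ∀ x ∈ derivedSeries P (Nat.log p (n / e) + 1), ∀ v ∈ LinearMap.ker (aeval (ρ z) h),
        ρ x v = v := by
    intro h
    induction h using WfDvdMonoid.induction_on_irreducible with
    | zero =>
      intro hd
      exact absurd (zero_dvd_iff.1 hd) hsq.ne_zero
    | unit u hu =>
      intro _ x _ v hv
      have h1 : IsUnit (aeval (ρ z) u) := hu.map (aeval (ρ z))
      have h2 := ((Module.End.isUnit_iff _).1 h1).injective
      rw [LinearMap.mem_ker] at hv
      have h3 : v = 0 := h2 (hv.trans (map_zero _).symm)
      rw [h3, map_zero]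
    | mul a i _ hi ih =>
      intro hd x hx v hv
      have hcop : IsCoprime i a := by
        rw [hi.coprime_iff_not_dvd]
        rintro ⟨b, rfl⟩
        have h1 : i * i ∣ X ^ (p ^ k) - C 1 := (Dvd.intro b (by ring)).trans hd
        exact hi.not_isUnit (hsq i h1)
      rw [← sup_ker_aeval_eq_ker_aeval_mul_of_coprime (ρ z) hcop, Submodule.mem_sup] at hv
      obtain ⟨v1, hv1, v2, hv2, rfl⟩ := hv
      rw [map_add, ih ((dvd_mul_left a i).trans hd) x hx v2 hv2,
        irrF p hpq e he n IH P hP V hV ρ z (Subgroup.mem_center_iff.1 hz) hT1 k i hi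
          ((dvd_mul_right i a).trans hd) x hx v1 hv1]
  intro x hx
  rw [MonoidHom.mem_ker]
  ext v
  exact claim _ dvd_rfl x hx v (by rw [LinearMap.mem_ker]; simp [hTk])

theorem mainF (p : ℕ) [Fact p.Prime] (hpq : ¬ p ∣ Fintype.card F) (e : ℕ)
    (he : e = orderOf ((Fintype.card F : ℕ) : ZMod p)) (n : ℕ) : GoalF.{u, v, w} F p e n := by
  induction n using Nat.strong_induction_on with
  | _ n IH =>
    intro P _ _ hP V _ _ _ hV ρ
    apply le_ker_of_quot
    exact faithful_stepF p hpq e he n IH (P ⧸ ρ.ker) (hP.to_quotient _) V hV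
      (QuotientGroup.lift ρ.ker ρ (fun x hx => hx)) (lift_injective ρ)

/-- matrix form -/
theorem mainGL (p : ℕ) [Fact p.Prime] (hpq : ¬ p ∣ Fintype.card F) (n : ℕ)
    (P : Subgroup (Matrix.GeneralLinearGroup (Fin n) F)) (hP : IsPGroup p P) :
    derivedSeries ↥P (Nat.log p (n / orderOf ((Fintype.card F : ℕ) : ZMod p)) + 1) = ⊥ := by
  classical
  let ρ : ↥P →* Module.End F (Fin n → F) :=
    (MonoidHomClass.toMonoidHom (Matrix.toLinAlgEquiv' : Matrix (Fin n) (Fin n) F ≃ₐ[F] _)).comp
      ((Units.coeHom _).comp P.subtype)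
  have hinj : ρ.ker = ⊥ := by
    rw [eq_bot_iff]
    intro g hg
    rw [MonoidHom.mem_ker] at hg
    have h1 : (g : Matrix.GeneralLinearGroup (Fin n) F).val = 1 := by
      apply (Matrix.toLinAlgEquiv' : Matrix (Fin n) (Fin n) F ≃ₐ[F] _).injective
      rw [map_one]
      exact hg
    rw [Subgroup.mem_bot]
    apply Subtype.ext
    exact Units.ext h1
  rw [eq_bot_iff, ← hinj]
  exact mainF p hpq _ rfl n ↥P hP (Fin n → F) (by simp) ρ

end finiteField

end Cfsg.Agent.Lib.Helper73LinP
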