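import Mathlib

set_option autoImplicit false

namespace Cfsg.Agent.Lib.Helper73Orbit

/-- A subgroup whose index is coprime to the length of an orbit is transitive on that orbit. -/
theorem exists_mem_smul_eq_of_coprime {H α : Type*} [Group H] [Finite H] [MulAction H α]
    (B : Subgroup H) (a : α) (hcop : ((MulAction.orbit H a).ncard).Coprime B.index) (h : H) :
    ∃ β ∈ B, β • a = h • a := by
  set A := MulAction.stabilizer H a with hAdef
  have hA : A.index = (MulAction.orbit H a).ncard := MulAction.index_stabilizer H a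
  have hstab : MulAction.stabilizer B a = A.subgroupOf B := by
    ext x
    simp only [MulAction.mem_stabilizer_iff, Subgroup.mem_subgroupOf, hAdef]
    rfl
  have hB : (MulAction.orbit B a).ncard = A.relIndex B := by
    rw [← MulAction.index_stabilizer, hstab]
    rfl
  have hdvd : A.index ∣ A.relIndex B * B.index := by
    rw [← Subgroup.inf_relIndex_right, Subgroup.relIndex_mul_index inf_le_right]
    exact Subgroup.index_dvd_of_le inf_le_left
  have hdvd' : A.index ∣ A.relIndex B := Nat.Coprime.dvd_of_dvd_mul_right (hA ▸ hcop) hdvd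
  have hsub : MulAction.orbit B a ⊆ MulAction.orbit H a := by
    rintro _ ⟨β, rfl⟩
    exact ⟨(β : H), rfl⟩
  have hfin : (MulAction.orbit H a).Finite := Set.finite_range _
  have hpos : 0 < (MulAction.orbit B a).ncard :=
    (Set.ncard_pos (hfin.subset hsub)).mpr ⟨a, MulAction.mem_orbit_self a⟩
  have heq : MulAction.orbit B a = MulAction.orbit H a := by
    apply Set.eq_of_subset_of_ncard_le hsub _ hfin
    rw [← hA, hB]
    rw [hB] at hpos
    exact Nat.le_of_dvd hpos hdvd'
  have : h • a ∈ MulAction.orbit B a := heq ▸ MulAction.mem_orbit a h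
  obtain ⟨β, hβ⟩ := this
  exact ⟨(β : H), β.2, hβ⟩

section Rep

variable {k V H : Type*} [Field k] [AddCommGroup V] [Module k V] [Group H]
  (ρ : Representation k H V)

/-- The action of `H` on `V` given by `ρ`. -/
@[reducible] def act : MulAction H V where
  smul h v := ρ h v
  one_smul v := by
    show ρ 1 v = v
    simp
  mul_smul g h v := by
    show ρ (g * h) v = ρ g (ρ h v)
    simp

/-- The stabilizer of a vector. -/
def stab (a : V) : Subgroup H where
  carrier := {h | ρ h a = a}
  mul_mem' := by
    intro x y hx hy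
    simp only [Set.mem_ofPred_eq] at *
    rw [map_mul, Module.End.mul_apply, hy, hx]
  one_mem' := by simp
  inv_mem' := by
    intro x hx
    simp only [Set.mem_ofPred_eq] at *
    have : ρ x⁻¹ (ρ x a) = a := by
      rw [← Module.End.mul_apply, ← map_mul]; simp
    rwa [hx] at this

theorem mem_stab {a : V} {h : H} : h ∈ stab ρ a ↔ ρ h a = a := Iff.rfl

theorem index_stab (a : V) : (stab ρ a).index = Nat.card {u : V | ∃ h : H, ρ h a = u} := by
  let _ := act ρ
  have h1 : stab ρ a = MulAction.stabilizer H a := by
    ext x; rfl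
  rw [h1, MulAction.index_stabilizer, Nat.card_coe_set_eq]
  rfl

/-- Coprime index implies transitivity on the orbit. -/
theorem exists_mem_apply_eq_of_coprime [Finite H] (B : Subgroup H) (a : V)
    (hcop : (Nat.card {u : V | ∃ h : H, ρ h a = u}).Coprime B.index) (h : H) :
    ∃ β ∈ B, ρ β a = ρ h a := by
  let _ := act ρ
  apply exists_mem_smul_eq_of_coprime B a
  rw [Nat.card_coe_set_eq] at hcop
  exact hcop

open Classical in
/-- The sum of the orbit of `a`. -/
noncomputable def orbitSum [Finite H] (a : V) : V :=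
  letI := Fintype.ofFinite H
  ∑ u ∈ (Finset.univ.image fun h : H => ρ h a), u

open Classical in
theorem card_orbit [Finite H] (a : V) :
    letI := Fintype.ofFinite H
    Nat.card {u : V | ∃ h : H, ρ h a = u} = (Finset.univ.image fun h : H => ρ h a).card := by
  let _ := Fintype.ofFinite H
  rw [Nat.card_coe_set_eq, ← Set.ncard_coe_finset]
  congr 1
  ext u
  simp

theorem apply_injective (h : H) : Function.Injective (ρ h) := by
  intro x y hxy
  have := congrArg (ρ h⁻¹) hxy
  simpa [← Module.End.mul_apply, ← map_mul] using this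

theorem apply_orbitSum [Finite H] (a : V) (h : H) : ρ h (orbitSum ρ a) = orbitSum ρ a := by
  classical
  let _ := Fintype.ofFinite H
  unfold orbitSum
  rw [map_sum]
  have himg : ((Finset.univ.image fun g : H => ρ g a).image (ρ h)) =
      (Finset.univ.image fun g : H => ρ g a) := by
    ext u
    simp only [Finset.mem_image, Finset.mem_univ, true_and, exists_exists_eq_and]
    constructor
    · rintro ⟨g, rfl⟩
      exact ⟨h * g, by simp⟩
    · rintro ⟨g, rfl⟩
      exact ⟨h⁻¹ * g, by simp [← Module.End.mul_apply, ← map_mul]⟩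
  have := Finset.sum_image (s := (Finset.univ.image fun g : H => ρ g a)) (g := ρ h)
    (f := fun u => u) (fun x _ y _ hxy => apply_injective ρ h hxy)
  rw [himg] at this
  exact this.symm

/-- Averaging: a vector fixed by a subgroup `K` of invertible order that is transitive on the
spanning orbit of `a` is a multiple of the orbit sum. -/
theorem exists_eq_smul_orbitSum [Finite H] (a : V)
    (hspan : Submodule.span k {u : V | ∃ h : H, ρ h a = u} = ⊤) (K : Subgroup H)
    (hK : (Nat.card K : k) ≠ 0) (hO : (Nat.card {u : V | ∃ h : H, ρ h a = u} : k) ≠ 0)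
    (htrans : ∀ h : H, ∃ κ ∈ K, ρ κ a = ρ h a) (v : V) (hv : ∀ κ ∈ K, ρ κ v = v) :
    ∃ c : k, v = c • orbitSum ρ a := by
  classical
  let _ := Fintype.ofFinite H
  let _ := Fintype.ofFinite K
  let T : V →ₗ[k] V := ∑ κ : K, ρ (κ : H)
  have hT : ∀ w, T w = ∑ κ : K, ρ (κ : H) w := by
    intro w
    simp [T, LinearMap.sum_apply]
  have hfix : ∀ w, (∀ κ ∈ K, ρ κ w = w) → T w = (Nat.card K : k) • w := by
    intro w hw
    rw [hT, Finset.sum_congr rfl (fun (κ : K) _ => hw (κ : H) κ.2), Finset.sum_const, Finset.card_univ,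
      Nat.card_eq_fintype_card, Nat.cast_smul_eq_nsmul]
  have horb : ∀ h : H, T (ρ h a) = T a := by
    intro h
    obtain ⟨κ₀, hκ₀, hκ⟩ := htrans h
    rw [← hκ, hT, hT]
    apply Fintype.sum_equiv (Equiv.mulRight (⟨κ₀, hκ₀⟩ : K))
    intro κ
    simp
  have hall : ∀ w, T w ∈ Submodule.span k {T a} := by
    intro w
    have hw : w ∈ Submodule.span k {u : V | ∃ h : H, ρ h a = u} := hspan ▸ Submodule.mem_top
    induction hw using Submodule.span_induction with
    | mem x hx =>
      obtain ⟨h, rfl⟩ := hx
      rw [horb]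
      exact Submodule.mem_span_singleton_self _
    | zero => simp
    | add x y _ _ hx hy => rw [map_add]; exact Submodule.add_mem _ hx hy
    | smul c x _ hx => rw [map_smul]; exact Submodule.smul_mem _ c hx
  obtain ⟨c, hc⟩ := Submodule.mem_span_singleton.mp (hall v)
  rw [hfix v hv] at hc
  have hsum : (Nat.card {u : V | ∃ h : H, ρ h a = u} : k) • T a =
      (Nat.card K : k) • orbitSum ρ a := by
    rw [← hfix (orbitSum ρ a) (fun κ _ => apply_orbitSum ρ a κ)]
    unfold orbitSum
    rw [map_sum, card_orbit]
    have : ∀ u ∈ (Finset.univ.image fun h : H => ρ h a), T u = T a := by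
      intro u hu
      obtain ⟨h, _, rfl⟩ := Finset.mem_image.mp hu
      exact horb h
    rw [Finset.sum_congr rfl this, Finset.sum_const, Nat.cast_smul_eq_nsmul]
  refine ⟨c * (Nat.card {u : V | ∃ h : H, ρ h a = u} : k)⁻¹, ?_⟩
  have h1 : T a = ((Nat.card {u : V | ∃ h : H, ρ h a = u} : k)⁻¹ * (Nat.card K : k)) •
      orbitSum ρ a := by
    rw [mul_smul, ← hsum, smul_smul, inv_mul_cancel₀ hO, one_smul]
  have h2 : v = (Nat.card K : k)⁻¹ • (c • T a) := by
    rw [hc, smul_smul, inv_mul_cancel₀ hK, one_smul]
  rw [h2, h1, smul_smul, smul_smul]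
  congr 1
  field_simp

/-- Consequence for the invariants. -/
theorem finrank_invariants_le_one [Finite H] (a : V)
    (h : ∀ v : V, (∀ g : H, ρ g v = v) → ∃ c : k, v = c • orbitSum ρ a) :
    Module.finrank k ρ.invariants ≤ 1 := by
  have hle : ρ.invariants ≤ Submodule.span k {orbitSum ρ a} := by
    intro v hv
    obtain ⟨c, hc⟩ := h v ((Representation.mem_invariants ρ v).mp hv)
    rw [hc]
    exact Submodule.smul_mem _ c (Submodule.mem_span_singleton_self _)
  calc Module.finrank k ρ.invariants ≤ Module.finrank k (Submodule.span k {orbitSum ρ a}) :=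
        Submodule.finrank_mono hle
    _ ≤ 1 := by
        have := finrank_span_le_card (R := k) ({orbitSum ρ a} : Set V)
        simpa using this

end Rep

end Cfsg.Agent.Lib.Helper73Orbit
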