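import Mathlib
import Cfsg.Agent.Lib.Helper73Class
import Cfsg.Agent.Lib.Helper73Comm

set_option autoImplicit false

namespace Cfsg.Agent.Lib.Helper73Small

open Cfsg.Agent.Lib.Helper73Class

/-- If `K` is an abelian normal subgroup, `k ∈ K` and `u = [k,x] ≠ 1`, then the class of `u` is
strictly smaller than the class of `x`. -/
theorem index_centralizer_commutator_lt {G : Type*} [Group G] [Finite G] (K : Subgroup G)
    [K.Normal] (hK : ∀ a ∈ K, ∀ b ∈ K, a * b = b * a) (x k : G) (hk : k ∈ K)
    (hu : k * x * k⁻¹ * x⁻¹ ≠ 1) :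
    (Subgroup.centralizer ({k * x * k⁻¹ * x⁻¹} : Set G)).index <
      (Subgroup.centralizer ({x} : Set G)).index := by
  classical
  rw [index_centralizer_eq_ncard, index_centralizer_eq_ncard]
  set u := k * x * k⁻¹ * x⁻¹ with hudef
  let r : G ⧸ K → G := fun q =>
    if h : ∃ z, IsConj x z ∧ (QuotientGroup.mk z : G ⧸ K) = q then h.choose else 1
  have r_spec : ∀ y, IsConj x y →
      IsConj x (r (QuotientGroup.mk y)) ∧
        (QuotientGroup.mk (r (QuotientGroup.mk y)) : G ⧸ K) = QuotientGroup.mk y := by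
    intro y hy
    have h : ∃ z, IsConj x z ∧ (QuotientGroup.mk z : G ⧸ K) = QuotientGroup.mk y := ⟨y, hy, rfl⟩
    have : r (QuotientGroup.mk y) = h.choose := dif_pos h
    rw [this]
    exact h.choose_spec
  have hv : ∀ v, IsConj u v → ∃ q : G ⧸ K,
      (QuotientGroup.mk (r q) : G ⧸ K) = q ∧ IsConj x (v * r q) ∧ v ∈ K := by
    intro v hv
    obtain ⟨g, hg⟩ := isConj_iff.mp hv
    have hx' : IsConj x (g * x * g⁻¹) := isConj_iff.mpr ⟨g, rfl⟩
    obtain ⟨h1, h2⟩ := r_spec _ hx'
    set x' := g * x * g⁻¹ with hx'def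
    set z := r (QuotientGroup.mk x') with hz
    have hw : x'⁻¹ * z ∈ K := by
      have := QuotientGroup.eq.mp h2.symm
      exact this
    set k' := g * k * g⁻¹ with hk'def
    have hk' : k' ∈ K := ‹K.Normal›.conj_mem k hk g
    have hvk : v = k' * x' * k'⁻¹ * x'⁻¹ := by
      rw [← hg, hudef, hk'def, hx'def]; group
    have hxk : x' * k'⁻¹ * x'⁻¹ ∈ K := ‹K.Normal›.conj_mem _ (K.inv_mem hk') x'
    refine ⟨QuotientGroup.mk x', h2, ?_, ?_⟩
    · have h3 : v * z = k' * z * k'⁻¹ := by
        have hc := hK _ hw _ (K.inv_mem hk')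
        calc v * z = k' * x' * k'⁻¹ * (x'⁻¹ * z) := by rw [hvk]; group
          _ = k' * x' * ((x'⁻¹ * z) * k'⁻¹) := by rw [hc]; group
          _ = k' * z * k'⁻¹ := by group
      rw [h3]
      exact h1.trans (isConj_iff.mpr ⟨k', rfl⟩)
    · rw [hvk]
      have : k' * x' * k'⁻¹ * x'⁻¹ = k' * (x' * k'⁻¹ * x'⁻¹) := by group
      rw [this]
      exact K.mul_mem hk' hxk
  let f : G → G := fun v => if h : IsConj u v then v * r (hv v h).choose else 1
  have hf : ∀ v (h : IsConj u v), f v = v * r (hv v h).choose := fun v h => dif_pos h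
  obtain ⟨hz0, hz0'⟩ := r_spec x (IsConj.refl x)
  set z0 := r (QuotientGroup.mk x) with hz0def
  have hle : ({y : G | IsConj u y} : Set G).ncard ≤ (({y : G | IsConj x y} : Set G) \ {z0}).ncard := by
    apply Set.ncard_le_ncard_of_injOn f
    · intro v hvv
      have hvv' : IsConj u v := hvv
      obtain ⟨h1, h2, h3⟩ := (hv v hvv').choose_spec
      rw [hf v hvv']
      refine ⟨h2, ?_⟩
      intro heq
      rw [Set.mem_singleton_iff] at heq
      set q := (hv v hvv').choose with hq
      have h4 : (QuotientGroup.mk (v * r q) : G ⧸ K) = QuotientGroup.mk (r q) := by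
        rw [QuotientGroup.mk_mul, (QuotientGroup.eq_one_iff v).mpr h3, one_mul]
      rw [heq, hz0', h1] at h4
      rw [← h4, ← hz0def] at heq
      have hv1 : v = 1 := by simpa using heq
      rw [hv1] at hvv'
      exact hu (isConj_one_right.mp hvv'.symm |> fun h => h)
    · intro v hvv w hww hvw
      have hvv' : IsConj u v := hvv
      have hww' : IsConj u w := hww
      obtain ⟨h1, h2, h3⟩ := (hv v hvv').choose_spec
      obtain ⟨g1, g2, g3⟩ := (hv w hww').choose_spec
      rw [hf v hvv', hf w hww'] at hvw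
      set q := (hv v hvv').choose with hq
      set q' := (hv w hww').choose with hq'
      have h4 : (QuotientGroup.mk (v * r q) : G ⧸ K) = QuotientGroup.mk (r q) := by
        rw [QuotientGroup.mk_mul, (QuotientGroup.eq_one_iff v).mpr h3, one_mul]
      have g4 : (QuotientGroup.mk (w * r q') : G ⧸ K) = QuotientGroup.mk (r q') := by
        rw [QuotientGroup.mk_mul, (QuotientGroup.eq_one_iff w).mpr g3, one_mul]
      rw [hvw, g4, g1, h1] at h4
      rw [h4] at hvw
      exact mul_right_cancel hvw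
  have hmem : z0 ∈ ({y : G | IsConj x y} : Set G) := hz0
  have hpos : 0 < ({y : G | IsConj x y} : Set G).ncard :=
    (Set.ncard_pos (Set.toFinite _)).mpr ⟨z0, hmem⟩
  have := Set.ncard_sdiff_singleton_of_mem hmem
  omega

/-- Elements of minimal noncentral class size commute with an abelian normal subgroup modulo
the centre. -/
theorem commutator_mem_center_of_small {G : Type*} [Group G] [Finite G] (K : Subgroup G)
    [K.Normal] (hK : ∀ a ∈ K, ∀ b ∈ K, a * b = b * a) (m : ℕ)
    (hmin : ∀ x : G, 1 < (Subgroup.centralizer ({x} : Set G)).index →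
      m ≤ (Subgroup.centralizer ({x} : Set G)).index)
    (x : G) (hx : (Subgroup.centralizer ({x} : Set G)).index ≤ m) (k : G) (hk : k ∈ K) :
    k * x * k⁻¹ * x⁻¹ ∈ Subgroup.center G := by
  by_cases hu : k * x * k⁻¹ * x⁻¹ = 1
  · rw [hu]; exact Subgroup.one_mem _
  · have h1 := index_centralizer_commutator_lt K hK x k hk hu
    rw [← index_centralizer_eq_one_iff]
    by_contra hne
    have hpos : (Subgroup.centralizer ({k * x * k⁻¹ * x⁻¹} : Set G)).index ≠ 0 :=
      Subgroup.FiniteIndex.index_ne_zero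
    have h2 := hmin (k * x * k⁻¹ * x⁻¹) (by omega)
    omega

/-- Isaacs: if `A` is a self-centralizing abelian normal subgroup, the subgroup generated by the
elements in classes of the two smallest sizes has class at most three. -/
theorem lowerCentralSeries_closure_small {G : Type*} [Group G] [Finite G]
    (A : Subgroup G) [A.Normal] (hA : ∀ a ∈ A, ∀ b ∈ A, a * b = b * a)
    (hCA : Subgroup.centralizer (A : Set G) ≤ A) (m : ℕ)
    (hmin : ∀ x : G, 1 < (Subgroup.centralizer ({x} : Set G)).index →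
      m ≤ (Subgroup.centralizer ({x} : Set G)).index)
    (S : Set G) (hS : ∀ x ∈ S, (Subgroup.centralizer ({x} : Set G)).index ≤ m) :
    (Subgroup.closure S).lowerCentralSeries 3 = ⊥ := by
  set M := Subgroup.closure S with hM
  have h1 : ⁅A, M⁆ ≤ Subgroup.center G := by
    have key : M ≤ (Subgroup.centralizer
        ((A.map (QuotientGroup.mk' (Subgroup.center G)) : Subgroup (G ⧸ Subgroup.center G)) :
          Set (G ⧸ Subgroup.center G))).comap (QuotientGroup.mk' (Subgroup.center G)) := by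
      rw [hM, Subgroup.closure_le]
      intro x hx
      rw [SetLike.mem_coe, Subgroup.mem_comap, Subgroup.mem_centralizer_iff]
      rintro _ ⟨a, ha, rfl⟩
      have h := commutator_mem_center_of_small A hA m hmin x (hS x hx) a ha
      have h2 : (QuotientGroup.mk' (Subgroup.center G)) (a * x * a⁻¹ * x⁻¹) = 1 :=
        (QuotientGroup.eq_one_iff _).mpr h
      rw [map_mul, map_mul, map_mul, map_inv, map_inv] at h2
      have h3 := mul_inv_eq_one.mp h2
      exact mul_inv_eq_iff_eq_mul.mp h3
    have h2 : ⁅A.map (QuotientGroup.mk' (Subgroup.center G)),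
        M.map (QuotientGroup.mk' (Subgroup.center G))⁆ = ⊥ := by
      rw [Subgroup.commutator_comm, Subgroup.commutator_eq_bot_iff_le_centralizer]
      exact Subgroup.map_le_iff_le_comap.mpr key
    rw [← Subgroup.map_commutator, Subgroup.map_eq_bot_iff, QuotientGroup.ker_mk'] at h2
    exact h2
  have h2 : ⁅⁅A, M⁆, M⁆ = ⊥ := by
    rw [eq_bot_iff]
    calc ⁅⁅A, M⁆, M⁆ ≤ ⁅Subgroup.center G, M⁆ := Subgroup.commutator_mono h1 le_rfl
      _ = ⊥ := Subgroup.commutator_center_left M
  have h3 : ⁅⁅M, A⁆, M⁆ = ⊥ := by rw [Subgroup.commutator_comm M A]; exact h2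
  have h4 : ⁅⁅M, M⁆, A⁆ = ⊥ := Subgroup.commutator_commutator_eq_bot_of_rotate h3 h2
  have h5 : ⁅M, M⁆ ≤ A :=
    (Subgroup.commutator_eq_bot_iff_le_centralizer.mp h4).trans hCA
  have h6 : ⁅⁅M, M⁆, M⁆ ≤ Subgroup.center G := (Subgroup.commutator_mono h5 le_rfl).trans h1
  show ⁅⁅⁅M, M⁆, M⁆, M⁆ = ⊥
  rw [eq_bot_iff]
  calc ⁅⁅⁅M, M⁆, M⁆, M⁆ ≤ ⁅Subgroup.center G, M⁆ := Subgroup.commutator_mono h6 le_rfl
    _ = ⊥ := Subgroup.commutator_center_left M

/-- Passing from the ambient lower central series to the upper central series of the subgroup. -/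
theorem upperCentralSeries_eq_top_of_lcs {G : Type*} [Group G] (M : Subgroup G) (n : ℕ)
    (h : M.lowerCentralSeries n = ⊥) : Subgroup.upperCentralSeries ↥M n = ⊤ := by
  rw [← Subgroup.lowerCentralSeries_eq_bot_iff_upperCentralSeries_eq_top,
    ← Subgroup.map_subtype_inj, Subgroup.map_bot, Subgroup.top_subtype_lowerCentralSeries]
  exact h

end Cfsg.Agent.Lib.Helper73Small
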