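import Cfsg.Agent.Lib.Helper43SpDefs
import Cfsg.Agent.Lib.Helper43StDefs
import Cfsg.Agent.Lib.Helper65Spcbasic

set_option autoImplicit false

/-! Project 243 wave 2 (S2292), piece `cUAQ`: `ι(A.U)` normalises `Q' L` and centralises `x_{2e_L}`
modulo `Q' L` (`L` the last index).
Extra hypotheses at the end: `LQ_gen'`, `LQ_gen''` (piece `cLQ`). -/

namespace Cfsg.Agent.Lib.Helper73SpCUAQ

open Matrix Cfsg.Agent.Lib.Helper43St Cfsg.Agent.Lib.Helper43Sp

theorem conj_closure {G : Type*} [Group G] (T : Set G) (K : Subgroup G) (g : G)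
    (h : ∀ γ ∈ T, g * γ * g⁻¹ ∈ K) : ∀ q ∈ Subgroup.closure T, g * q * g⁻¹ ∈ K := by
  intro q hq
  have h1 : Subgroup.closure T ≤ K.comap (MulAut.conj g).toMonoidHom := by
    rw [Subgroup.closure_le]
    intro γ hγ
    exact h γ hγ
  exact h1 hq

variable {m : ℕ} {F : Type*} [Field F] {P : Type*} [Group P] (S : CSys m F P)
variable {Sg : Type*} [Group Sg] (A : StSys m F Sg) (ι : Sg →* P)

theorem UA_Q' (hm : 2 ≤ m) (hι : ∀ i j t, i ≠ j → ι (A.x i j t) = S.x (Sum.inl i) (Sum.inl j) t)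
    (L : Fin m) (hL : L.val + 1 = m) (u : Sg) (hu : u ∈ A.U) (q : P) (hq : q ∈ S.Q' L)
    (hLQ' : ∀ (L i j k l : Fin m), i ≠ j → i ≠ L → (k, l) ≠ (L, L) → ∀ (s t : F),
      S.x (Sum.inl i) (Sum.inl j) s * S.x (Sum.inl k) (Sum.inr l) t * (S.x (Sum.inl i) (Sum.inl j) s)⁻¹
        ∈ S.Q' L) :
    ι u * q * (ι u)⁻¹ ∈ S.Q' L ∧ (ι u)⁻¹ * q * ι u ∈ S.Q' L := by
  revert q
  unfold StSys.U at hu
  induction hu using Subgroup.closure_induction with
  | mem x hx =>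
    obtain ⟨i, j, s, hij, rfl⟩ := hx
    have hne : i ≠ j := hij.ne
    have hiL : i ≠ L := by
      intro h
      have h1 : i.val < j.val := hij
      have h2 := j.2
      rw [h] at h1
      omega
    have hne' : (Sum.inl i : I m) ≠ Sum.inl j := fun h => hne (Sum.inl.inj h)
    intro q hq
    rw [hι i j s hne]
    constructor
    · refine conj_closure _ _ _ ?_ q hq
      rintro _ ⟨k, l, t, hkl, rfl⟩
      exact hLQ' L i j k l hne hiL hkl s t
    · have h1 : (S.x (Sum.inl i) (Sum.inl j) s)⁻¹ * q * S.x (Sum.inl i) (Sum.inl j) s =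
          S.x (Sum.inl i) (Sum.inl j) (-s) * q * (S.x (Sum.inl i) (Sum.inl j) (-s))⁻¹ := by
        rw [← Cfsg.Agent.Lib.Helper65Spcbasic.x_neg S hm _ _ hne' s, inv_inv]
      rw [h1]
      refine conj_closure _ _ _ ?_ q hq
      rintro _ ⟨k, l, t, hkl, rfl⟩
      exact hLQ' L i j k l hne hiL hkl (-s) t
  | one =>
    intro q hq
    simpa using hq
  | mul x y _ _ hx hy =>
    intro q hq
    constructor
    · have := (hx _ (hy q hq).1).1
      have e : ι (x * y) * q * (ι (x * y))⁻¹ = ι x * (ι y * q * (ι y)⁻¹) * (ι x)⁻¹ := by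
        rw [map_mul]; group
      rw [e]
      exact this
    · have := (hy _ (hx q hq).2).2
      have e : (ι (x * y))⁻¹ * q * ι (x * y) = (ι y)⁻¹ * ((ι x)⁻¹ * q * ι x) * ι y := by
        rw [map_mul]; group
      rw [e]
      exact this
  | inv x _ hx =>
    intro q hq
    rw [map_inv, inv_inv]
    exact ⟨(hx q hq).2, (hx q hq).1⟩

theorem UA_x (hm : 2 ≤ m) (hι : ∀ i j t, i ≠ j → ι (A.x i j t) = S.x (Sum.inl i) (Sum.inl j) t)
    (L : Fin m) (hL : L.val + 1 = m) (u : Sg) (hu : u ∈ A.U) (c : F)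
    (hLQ' : ∀ (L i j k l : Fin m), i ≠ j → i ≠ L → (k, l) ≠ (L, L) → ∀ (s t : F),
      S.x (Sum.inl i) (Sum.inl j) s * S.x (Sum.inl k) (Sum.inr l) t * (S.x (Sum.inl i) (Sum.inl j) s)⁻¹
        ∈ S.Q' L)
    (hLQ'' : ∀ (L i j : Fin m), i ≠ j → i ≠ L → ∀ (s t : F),
      (S.x (Sum.inl L) (Sum.inr L) t)⁻¹ * (S.x (Sum.inl i) (Sum.inl j) s * S.x (Sum.inl L) (Sum.inr L) t *
        (S.x (Sum.inl i) (Sum.inl j) s)⁻¹) ∈ S.Q' L) :
    (S.x (Sum.inl L) (Sum.inr L) c)⁻¹ * (ι u * S.x (Sum.inl L) (Sum.inr L) c * (ι u)⁻¹) ∈ S.Q' L := by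
  set X := S.x (Sum.inl L) (Sum.inr L) c with hX
  have hu' := hu
  unfold StSys.U at hu'
  induction hu' using Subgroup.closure_induction with
  | mem x hx =>
    obtain ⟨i, j, s, hij, rfl⟩ := hx
    have hne : i ≠ j := hij.ne
    have hiL : i ≠ L := by
      intro h
      have h1 : i.val < j.val := hij
      have h2 := j.2
      rw [h] at h1
      omega
    rw [hι i j s hne]
    exact hLQ'' L i j hne hiL s c
  | one => simp
  | mul x y hx' hy' hx hy =>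
    have hxU : x ∈ A.U := hx'
    have hyU : y ∈ A.U := hy'
    have h1 := hx hxU
    have h2 := (UA_Q' S A ι hm hι L hL x hxU _ (hy hyU) hLQ').1
    have e : X⁻¹ * (ι (x * y) * X * (ι (x * y))⁻¹) =
        (X⁻¹ * (ι x * X * (ι x)⁻¹)) * (ι x * (X⁻¹ * (ι y * X * (ι y)⁻¹)) * (ι x)⁻¹) := by
      rw [map_mul]; group
    rw [e]
    exact (S.Q' L).mul_mem h1 h2
  | inv x hx' hx =>
    have hxU : x ∈ A.U := hx'
    have h2 := (UA_Q' S A ι hm hι L hL x hxU _ (hx hxU) hLQ').2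
    have e : X⁻¹ * (ι x⁻¹ * X * (ι x⁻¹)⁻¹) =
        ((ι x)⁻¹ * (X⁻¹ * (ι x * X * (ι x)⁻¹)) * ι x)⁻¹ := by
      rw [map_inv]; group
    rw [e]
    exact (S.Q' L).inv_mem h2

end Cfsg.Agent.Lib.Helper73SpCUAQ
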