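import Cfsg.Agent.Lib.Helper43SpDefs
import Cfsg.Agent.Lib.Helper43StDefs

set_option autoImplicit false

/-! Project 243 wave 2 (S2292), piece `cUdec`: `U = ι(A.U) Q`.
Extra hypothesis at the end: `LQ` (piece `cLQn`). -/

namespace Cfsg.Agent.Lib.Helper73SpCUdec

open Matrix Cfsg.Agent.Lib.Helper43St Cfsg.Agent.Lib.Helper43Sp

variable {m : ℕ} {F : Type*} [Field F] {P : Type*} [Group P] (S : CSys m F P)
variable {Sg : Type*} [Group Sg] (A : StSys m F Sg) (ι : Sg →* P)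

theorem U_dec (hm : 2 ≤ m) (hι : ∀ i j t, i ≠ j → ι (A.x i j t) = S.x (Sum.inl i) (Sum.inl j) t)
    (y : P) (hy : y ∈ S.U)
    (hLQ : ∀ (g : Sg) (q : P), q ∈ S.Q → ι g * q * (ι g)⁻¹ ∈ S.Q) :
    ∃ u ∈ A.U, ∃ q ∈ S.Q, y = ι u * q := by
  unfold CSys.U at hy
  induction hy using Subgroup.closure_induction with
  | mem x hx =>
    obtain ⟨a, b, t, hab, rfl⟩ := hx
    rcases a with i | i <;> rcases b with j | j
    · simp only [rk, Sum.elim_inl] at hab
      have hij : i < j := hab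
      exact ⟨A.x i j t, Subgroup.subset_closure ⟨i, j, t, hij, rfl⟩, 1, S.Q.one_mem, by
        rw [hι i j t hij.ne, mul_one]⟩
    · exact ⟨1, A.U.one_mem, _, Subgroup.subset_closure ⟨i, j, t, rfl⟩, by rw [map_one, one_mul]⟩
    · exfalso
      simp only [rk, Sum.elim_inl, Sum.elim_inr] at hab
      have := i.2
      have := j.2
      omega
    · simp only [rk, Sum.elim_inr] at hab
      have hji : j < i := by
        have := i.2
        have := j.2
        show j.val < i.val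
        omega
      have hne : ab (Sum.inr i : I m) ≠ ab (Sum.inr j : I m) := by
        simp only [ab, Sum.elim_inr, id]
        exact hji.ne'
      refine ⟨A.x j i (-(sg F (Sum.inr i : I m) * sg F (Sum.inr j : I m) * t)),
        Subgroup.subset_closure ⟨j, i, _, hji, rfl⟩, 1, S.Q.one_mem, ?_⟩
      rw [hι j i _ hji.ne, mul_one, S.sym _ _ t hne]
      rfl
  | one => exact ⟨1, A.U.one_mem, 1, S.Q.one_mem, by simp⟩
  | mul x y _ _ hx hy =>
    obtain ⟨u, hu, q, hq, rfl⟩ := hx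
    obtain ⟨u', hu', q', hq', rfl⟩ := hy
    refine ⟨u * u', A.U.mul_mem hu hu', (ι u'⁻¹ * q * (ι u'⁻¹)⁻¹) * q',
      S.Q.mul_mem (hLQ _ _ hq) hq', ?_⟩
    rw [map_mul, map_inv]
    group
  | inv x _ hx =>
    obtain ⟨u, hu, q, hq, rfl⟩ := hx
    refine ⟨u⁻¹, A.U.inv_mem hu, ι u * q⁻¹ * (ι u)⁻¹, hLQ _ _ (S.Q.inv_mem hq), ?_⟩
    rw [map_inv]
    group

end Cfsg.Agent.Lib.Helper73SpCUdec
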