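import Cfsg.Agent.Lib.Helper36BPAlt2gen

set_option autoImplicit false

/-! Project 243 wave 3 (S2292), piece `egens`: two generators for `A_n` and for the stabilisers of
`0` and of `0, 1` in `S_n`. -/

namespace Cfsg.Agent.Lib.Helper73SpEgens

open Cfsg.Agent.Lib.Helper43BP

/-- the symmetric group on a finite type is generated by two elements -/
theorem perm_two_gen (β : Type*) [Fintype β] [DecidableEq β] :
    ∃ g1 g2 : Equiv.Perm β, Subgroup.closure ({g1, g2} : Set (Equiv.Perm β)) = ⊤ := by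
  obtain ⟨n, hn⟩ : ∃ n, Fintype.card β = n := ⟨_, rfl⟩
  rcases n with _ | _ | k
  · haveI : IsEmpty β := Fintype.card_eq_zero_iff.mp hn
    exact ⟨1, 1, Subsingleton.elim _ _⟩
  · haveI : Subsingleton β := Fintype.card_le_one_iff_subsingleton.mp (by omega)
    exact ⟨1, 1, Subsingleton.elim _ _⟩
  · let e : Fin (k + 2) ≃ β := (Fintype.equivFinOfCardEq hn).symm
    have h := Equiv.Perm.closure_cycle_adjacent_swap (isCycle_finRotate (n := k))
      (support_finRotate (n := k)) 0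
    refine ⟨e.permCongrHom (finRotate (k + 2)),
      e.permCongrHom (Equiv.swap 0 (finRotate (k + 2) 0)), ?_⟩
    have h2 := congrArg (Subgroup.map e.permCongrHom.toMonoidHom) h
    rw [MonoidHom.map_closure, Subgroup.map_top_of_surjective _ e.permCongrHom.surjective,
      Set.image_pair] at h2
    exact h2

/-- the permutations fixing every point outside `p` are generated by two of them -/
theorem symOn_two_gen {Ω : Type*} [Fintype Ω] [DecidableEq Ω] (p : Ω → Prop) [DecidablePred p] :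
    ∃ g1 g2 : Equiv.Perm Ω, (∀ x, ¬ p x → g1 x = x) ∧ (∀ x, ¬ p x → g2 x = x) ∧
      ∀ σ : Equiv.Perm Ω, (∀ x, ¬ p x → σ x = x) →
        σ ∈ Subgroup.closure ({g1, g2} : Set (Equiv.Perm Ω)) := by
  obtain ⟨h1, h2, hh⟩ := perm_two_gen (Subtype p)
  refine ⟨Equiv.Perm.ofSubtype h1, Equiv.Perm.ofSubtype h2,
    fun x hx => Equiv.Perm.ofSubtype_apply_of_not_mem h1 hx,
    fun x hx => Equiv.Perm.ofSubtype_apply_of_not_mem h2 hx, ?_⟩
  intro σ hσ
  have hp : ∀ x, p (σ x) ↔ p x := by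
    intro x
    by_cases hx : p x
    · refine ⟨fun _ => hx, fun _ => ?_⟩
      by_contra hcon
      have h3 := hσ _ hcon
      have h4 := σ.injective h3
      rw [h4] at hcon
      exact hcon hx
    · rw [hσ x hx]
  have hσ' : Equiv.Perm.ofSubtype (σ.subtypePerm hp) = σ :=
    Equiv.Perm.ofSubtype_subtypePerm hp (fun x hx => by
      by_contra hcon
      exact hx (hσ x hcon))
  have hmem : σ.subtypePerm hp ∈ Subgroup.closure ({h1, h2} : Set (Equiv.Perm (Subtype p))) := by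
    rw [hh]
    exact Subgroup.mem_top _
  have h5 := Subgroup.mem_map_of_mem (Equiv.Perm.ofSubtype (p := p)) hmem
  rw [MonoidHom.map_closure, Set.image_pair, hσ'] at h5
  exact h5

theorem exists_a (m : ℕ) : ∃ a1 a2 : Equiv.Perm (Fin (m + 3)),
    a1 ∈ alternatingGroup (Fin (m + 3)) ∧ a2 ∈ alternatingGroup (Fin (m + 3)) ∧
    alternatingGroup (Fin (m + 3)) ≤ Subgroup.closure ({a1, a2} : Set (Equiv.Perm (Fin (m + 3)))) := by
  obtain ⟨g1, g2, hg⟩ := Cfsg.Agent.Lib.Helper36BPAlt2gen.altOn_two_gen (Set.univ : Set (Fin (m + 3)))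
  have h1 : g1 ∈ altOn (Set.univ : Set (Fin (m + 3))) := by
    rw [← hg]; exact Subgroup.subset_closure (by simp)
  have h2 : g2 ∈ altOn (Set.univ : Set (Fin (m + 3))) := by
    rw [← hg]; exact Subgroup.subset_closure (by simp)
  refine ⟨g1, g2, Equiv.Perm.mem_alternatingGroup.2 h1.1, Equiv.Perm.mem_alternatingGroup.2 h2.1, ?_⟩
  intro σ hσ
  rw [hg]
  exact ⟨Equiv.Perm.mem_alternatingGroup.1 hσ, fun x hx => absurd (Set.mem_univ x) hx⟩

theorem exists_b (m : ℕ) : ∃ b1 b2 : Equiv.Perm (Fin (m + 3)), b1 0 = 0 ∧ b2 0 = 0 ∧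
    ∀ σ : Equiv.Perm (Fin (m + 3)), σ 0 = 0 →
      σ ∈ Subgroup.closure ({b1, b2} : Set (Equiv.Perm (Fin (m + 3)))) := by
  obtain ⟨g1, g2, h1, h2, h⟩ := symOn_two_gen (fun x : Fin (m + 3) => x ≠ 0)
  refine ⟨g1, g2, h1 0 (by simp), h2 0 (by simp), fun σ hσ => h σ ?_⟩
  intro x hx
  have : x = 0 := by simpa using hx
  rw [this, hσ]

theorem exists_c (m : ℕ) : ∃ c1 c2 : Equiv.Perm (Fin (m + 3)),
    (c1 0 = 0 ∧ c1 1 = 1) ∧ (c2 0 = 0 ∧ c2 1 = 1) ∧
    ∀ σ : Equiv.Perm (Fin (m + 3)), σ 0 = 0 → σ 1 = 1 →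
      σ ∈ Subgroup.closure ({c1, c2} : Set (Equiv.Perm (Fin (m + 3)))) := by
  obtain ⟨g1, g2, h1, h2, h⟩ := symOn_two_gen (fun x : Fin (m + 3) => x ≠ 0 ∧ x ≠ 1)
  refine ⟨g1, g2, ⟨h1 0 (by simp), h1 1 (by simp)⟩, ⟨h2 0 (by simp), h2 1 (by simp)⟩,
    fun σ hσ0 hσ1 => h σ ?_⟩
  intro x hx
  have : x = 0 ∨ x = 1 := by
    by_contra hcon
    push Not at hcon
    exact hx hcon
  rcases this with rfl | rfl
  · exact hσ0
  · exact hσ1

end Cfsg.Agent.Lib.Helper73SpEgens
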