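import Cfsg.Agent.Lib.Helper43SpDefs2
import Cfsg.Agent.Lib.Helper65SpAPI

set_option autoImplicit false

/-! Project 243 wave 3 (S2292), piece `prow`: the row and column relations of `SL_3` in a `PSys`.
Extra hypotheses at the end: `y_zero` (piece `pbasic`), `y_scale` (piece `phs`), `trans3` (piece `ptrans`). -/

namespace Cfsg.Agent.Lib.Helper73SpProw

open Matrix Cfsg.Agent.Lib.Helper43BP Cfsg.Agent.Lib.Helper43St Cfsg.Agent.Lib.Helper43Sp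

variable {m : ℕ} {F : Type*} [Field F] {P : Type*} [Group P] (Y : PSys (m + 3) F P)

theorem chi_ne {k : ℕ} (i : Fin k) (u : Fˣ) (z : I k) (h : ab z ≠ i) :
    chi (Pi.mulSingle i u) z = 1 := by
  rcases z with j | j
  · have h' : j ≠ i := h
    simp only [chi, Sum.elim_inl]
    exact Pi.mulSingle_eq_of_ne (M := fun _ => Fˣ) h' u
  · have h' : j ≠ i := h
    simp only [chi, Sum.elim_inr]
    rw [Pi.mulSingle_eq_of_ne (M := fun _ => Fˣ) h' u, inv_one]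

theorem exists_chi {k : ℕ} (b : I k) (l : Fˣ) : ∃ u : Fˣ, chi (Pi.mulSingle (ab b) u) b = l⁻¹ := by
  rcases b with j | j
  · exact ⟨l⁻¹, by simp [chi, ab]⟩
  · exact ⟨l, by simp [chi, ab]⟩

theorem ab_ng {k : ℕ} (z : I k) : ab (ng z) = ab z := by
  rcases z with j | j <;> rfl

theorem scale_aux (b : I (m + 3)) (l : Fˣ)
    (h_scale : ∀ (i : Fin (m + 3)) (u : Fˣ) (a b : I (m + 3)), a ≠ b → ∀ t : F,
      Y.hl i u * Y.x a b t * (Y.hl i u)⁻¹ =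
        Y.x a b (((chi (Pi.mulSingle i u) a : Fˣ) : F) * ((chi (Pi.mulSingle i u) b : Fˣ) : F)⁻¹ * t)) :
    ∃ h : P, (∀ a t, ab a ≠ ab b → h * Y.x a b t * h⁻¹ = Y.x a b ((l : F) * t)) ∧
      (∀ a c t, a ≠ c → ab a ≠ ab b → ab c ≠ ab b → h * Y.x a c t * h⁻¹ = Y.x a c t) := by
  obtain ⟨u, hu⟩ := exists_chi b l
  refine ⟨Y.hl (ab b) u, ?_, ?_⟩
  · intro a t hab
    rw [h_scale (ab b) u a b (fun h => hab (by rw [h])) t, chi_ne _ _ a hab, hu]
    simp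
  · intro a c t hac ha hc
    rw [h_scale (ab b) u a c hac t, chi_ne _ _ a ha, chi_ne _ _ c hc]
    simp

theorem y_row (h7 : Commute (Y.x (Sum.inl 0) (Sum.inl 1) 1) (Y.x (Sum.inl 0) (Sum.inl 2) 1))
    (a b c : I (m + 3)) (hab : ab a ≠ ab b) (hbc : ab b ≠ ab c) (hac : ab a ≠ ab c) (s t : F)
    (h_zero : ∀ (a b : I (m + 3)), a ≠ b → Y.x a b 0 = 1)
    (h_scale : ∀ (i : Fin (m + 3)) (u : Fˣ) (a b : I (m + 3)), a ≠ b → ∀ t : F,
      Y.hl i u * Y.x a b t * (Y.hl i u)⁻¹ =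
        Y.x a b (((chi (Pi.mulSingle i u) a : Fˣ) : F) * ((chi (Pi.mulSingle i u) b : Fˣ) : F)⁻¹ * t))
    (h_trans : ∀ (τ : Fin 3 → I (m + 3)), Function.Injective (ab ∘ τ) →
      ∃ n : P, ∀ p q : Fin 3, p ≠ q → ∀ t, ∃ t',
        n * Y.x (Sum.inl ((![0, 1, 2] : Fin 3 → Fin (m + 3)) p))
          (Sum.inl ((![0, 1, 2] : Fin 3 → Fin (m + 3)) q)) t * n⁻¹ = Y.x (τ p) (τ q) t') :
    Commute (Y.x a b s) (Y.x a c t) := by
  have hab' : a ≠ b := fun h => hab (by rw [h])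
  have hac' : a ≠ c := fun h => hac (by rw [h])
  by_cases hs : s = 0
  · rw [hs, h_zero a b hab']
    exact Commute.one_left _
  by_cases ht : t = 0
  · rw [ht, h_zero a c hac']
    exact Commute.one_right _
  have hinj : Function.Injective (ab ∘ (![a, b, c] : Fin 3 → I (m + 3))) := by
    intro p q hpq
    fin_cases p <;> fin_cases q <;> first | rfl | (exfalso; simp at hpq; first | exact hab hpq | exact hab hpq.symm | exact hbc hpq | exact hbc hpq.symm | exact hac hpq | exact hac hpq.symm)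
  obtain ⟨n, hn⟩ := h_trans ![a, b, c] hinj
  obtain ⟨c1, hc1⟩ := hn 0 1 (by decide) 1
  obtain ⟨c2, hc2⟩ := hn 0 2 (by decide) 1
  change n * Y.x (Sum.inl 0) (Sum.inl 1) 1 * n⁻¹ = Y.x a b c1 at hc1
  change n * Y.x (Sum.inl 0) (Sum.inl 2) 1 * n⁻¹ = Y.x a c c2 at hc2
  have hcomm : Commute (Y.x a b c1) (Y.x a c c2) := by
    rw [← hc1, ← hc2]
    exact (Commute.conj_iff n).mpr h7
  have hnz : ∀ (j : Fin (m + 3)) (d : I (m + 3)) (c0 : F), (0 : Fin (m + 3)) ≠ j → a ≠ d →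
      n * Y.x (Sum.inl 0) (Sum.inl j) 1 * n⁻¹ = Y.x a d c0 → c0 ≠ 0 := by
    intro j d c0 hj had h h0
    rw [h0, h_zero a d had, conj_eq_one_iff] at h
    have hne : (Sum.inl 0 : I (m + 3)) ≠ Sum.inl j := fun h => hj (Sum.inl.inj h)
    have h1 := Y.hπ (Sum.inl 0) (Sum.inl j) 1 hne
    rw [h, map_one, ← Cfsg.Agent.Lib.Helper65SpAPI.X_zero (Sum.inl 0) (Sum.inl j)] at h1
    have := Cfsg.Agent.Lib.Helper65SpAPI.X_inj _ _ hne _ _ h1
    exact zero_ne_one this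
  have hc1' : c1 ≠ 0 := hnz 1 b c1 (by
    intro h; have := congrArg Fin.val h; simp at this) hab' hc1
  have hc2' : c2 ≠ 0 := hnz 2 c c2 (by
    intro h
    have := congrArg Fin.val h
    rw [Fin.val_zero, Fin.val_two] at this
    omega) hac' hc2
  obtain ⟨h1, h1a, h1b⟩ := scale_aux Y b (Units.mk0 (s / c1) (div_ne_zero hs hc1')) h_scale
  obtain ⟨h2, h2a, h2b⟩ := scale_aux Y c (Units.mk0 (t / c2) (div_ne_zero ht hc2')) h_scale
  have e1 := (Commute.conj_iff h1).mpr hcomm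
  rw [h1a a c1 hab, h1b a c c2 hac' hab hbc.symm] at e1
  have e2 := (Commute.conj_iff h2).mpr e1
  rw [h2a a c2 hac, h2b a b _ hab' hac hbc] at e2
  simp only [Units.val_mk0] at e2
  rwa [div_mul_cancel₀ _ hc1', div_mul_cancel₀ _ hc2'] at e2

theorem y_col (h7 : Commute (Y.x (Sum.inl 0) (Sum.inl 1) 1) (Y.x (Sum.inl 0) (Sum.inl 2) 1))
    (a b c : I (m + 3)) (hab : ab a ≠ ab b) (hbc : ab b ≠ ab c) (hac : ab a ≠ ab c) (s t : F)
    (h_zero : ∀ (a b : I (m + 3)), a ≠ b → Y.x a b 0 = 1)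
    (h_scale : ∀ (i : Fin (m + 3)) (u : Fˣ) (a b : I (m + 3)), a ≠ b → ∀ t : F,
      Y.hl i u * Y.x a b t * (Y.hl i u)⁻¹ =
        Y.x a b (((chi (Pi.mulSingle i u) a : Fˣ) : F) * ((chi (Pi.mulSingle i u) b : Fˣ) : F)⁻¹ * t))
    (h_trans : ∀ (τ : Fin 3 → I (m + 3)), Function.Injective (ab ∘ τ) →
      ∃ n : P, ∀ p q : Fin 3, p ≠ q → ∀ t, ∃ t',
        n * Y.x (Sum.inl ((![0, 1, 2] : Fin 3 → Fin (m + 3)) p))
          (Sum.inl ((![0, 1, 2] : Fin 3 → Fin (m + 3)) q)) t * n⁻¹ = Y.x (τ p) (τ q) t') :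
    Commute (Y.x a c s) (Y.x b c t) := by
  rw [Y.sym a c s hac, Y.sym b c t hbc]
  exact y_row Y h7 (ng c) (ng a) (ng b) (by rw [ab_ng, ab_ng]; exact hac.symm)
    (by rw [ab_ng, ab_ng]; exact hab) (by rw [ab_ng, ab_ng]; exact hbc.symm) _ _
    h_zero h_scale h_trans

end Cfsg.Agent.Lib.Helper73SpProw
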