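import Cfsg.Agent.Lib.Helper43SpDefs2

set_option autoImplicit false

/-! Project 243 wave 3 (S2292), piece `ptrans`: the monomial group is transitive on triples of signed
indices.  Extra hypotheses at the end: `y_w_long` (piece `pwl`), `ext3p` (piece `pext3`). -/

namespace Cfsg.Agent.Lib.Helper73SpPtrans

open Matrix Cfsg.Agent.Lib.Helper43BP Cfsg.Agent.Lib.Helper43St Cfsg.Agent.Lib.Helper43Sp

variable {m : ℕ} {F : Type*} [Field F] {P : Type*} [Group P] (Y : PSys (m + 3) F P)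

theorem sw_long' {k : ℕ} (i : Fin k) :
    sw (Sum.inl i : I k) (Sum.inr i) = Equiv.swap (Sum.inl i) (Sum.inr i) := by
  unfold sw
  exact if_pos rfl

/-- `n` acts on the root elements through the permutation `φ` -/
def Rz (n : P) (φ : Equiv.Perm (I (m + 3))) : Prop :=
  ∀ c d, c ≠ d → ∀ t, ∃ t', n * Y.x c d t * n⁻¹ = Y.x (φ c) (φ d) t'

theorem Rz_mul {n₁ n₂ : P} {φ₁ φ₂ : Equiv.Perm (I (m + 3))} (h₂ : Rz Y n₂ φ₂) (h₁ : Rz Y n₁ φ₁) :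
    Rz Y (n₂ * n₁) (φ₂ * φ₁) := by
  intro c d hcd t
  obtain ⟨t₁, ht₁⟩ := h₁ c d hcd t
  obtain ⟨t₂, ht₂⟩ := h₂ (φ₁ c) (φ₁ d) (φ₁.injective.ne hcd) t₁
  refine ⟨t₂, ?_⟩
  rw [Equiv.Perm.mul_apply, Equiv.Perm.mul_apply, ← ht₂, ← ht₁]
  group

/-- the sign change attached to a signed index -/
def Sz (z : I (m + 3)) : Equiv.Perm (I (m + 3)) :=
  Sum.elim (fun _ => 1) (fun i => Equiv.swap (Sum.inl i) (Sum.inr i)) z

/-- the corresponding element of `P` -/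
def Nz (z : I (m + 3)) : P := Sum.elim (fun _ => 1) (fun i => Y.w (Sum.inl i) (Sum.inr i) 1) z

theorem Sz_self (z : I (m + 3)) : Sz z (Sum.inl (ab z)) = z := by
  rcases z with i | i
  · rfl
  · simp [Sz, ab]

theorem Sz_fix (z y : I (m + 3)) (h : ab y ≠ ab z) : Sz z y = y := by
  rcases z with i | i
  · rfl
  · simp only [Sz, Sum.elim_inr]
    apply Equiv.swap_apply_of_ne_of_ne
    · rintro rfl
      exact h rfl
    · rintro rfl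
      exact h rfl

theorem trans3 (τ : Fin 3 → I (m + 3)) (hτ : Function.Injective (ab ∘ τ))
    (h_w_long : ∀ (i : Fin (m + 3)) (c d : I (m + 3)), c ≠ d → ∀ t : F,
      ∃ t', Y.w (Sum.inl i) (Sum.inr i) 1 * Y.x c d t * (Y.w (Sum.inl i) (Sum.inr i) 1)⁻¹ =
        Y.x (sw (Sum.inl i) (Sum.inr i) c) (sw (Sum.inl i) (Sum.inr i) d) t')
    (h_ext3 : ∀ i j k : Fin (m + 3), i ≠ j → i ≠ k → j ≠ k →
      ∃ ρ : Equiv.Perm (Fin (m + 3)), ρ 0 = i ∧ ρ 1 = j ∧ ρ 2 = k) :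
    ∃ n : P, ∀ p q : Fin 3, p ≠ q → ∀ t, ∃ t',
      n * Y.x (Sum.inl ((![0, 1, 2] : Fin 3 → Fin (m + 3)) p))
        (Sum.inl ((![0, 1, 2] : Fin 3 → Fin (m + 3)) q)) t * n⁻¹ = Y.x (τ p) (τ q) t' := by
  have hne : ∀ p q : Fin 3, p ≠ q → ab (τ p) ≠ ab (τ q) := fun p q hpq h => hpq (hτ h)
  obtain ⟨ρ, h0, h1, h2⟩ := h_ext3 (ab (τ 0)) (ab (τ 1)) (ab (τ 2)) (hne 0 1 (by decide))
    (hne 0 2 (by decide)) (hne 1 2 (by decide))
  have hN : ∀ z : I (m + 3), Rz Y (Nz Y z) (Sz z) := by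
    intro z c d hcd t
    rcases z with i | i
    · exact ⟨t, by simp [Nz, Sz]⟩
    · obtain ⟨t', ht'⟩ := h_w_long i c d hcd t
      rw [sw_long'] at ht'
      exact ⟨t', ht'⟩
  have hθ : Rz Y (Y.θ ρ) (Equiv.sumCongr ρ ρ) := by
    intro c d hcd t
    exact ⟨t, Y.hθ ρ c d t hcd⟩
  have hall := Rz_mul Y (Rz_mul Y (Rz_mul Y (hN (τ 0)) (hN (τ 1))) (hN (τ 2))) hθ
  refine ⟨Nz Y (τ 0) * Nz Y (τ 1) * Nz Y (τ 2) * Y.θ ρ, fun p q hpq t => ?_⟩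
  have hk : ∀ p : Fin 3, (Sz (τ 0) * Sz (τ 1) * Sz (τ 2) * Equiv.sumCongr ρ ρ)
      (Sum.inl ((![0, 1, 2] : Fin 3 → Fin (m + 3)) p)) = τ p := by
    intro p
    simp only [Equiv.Perm.mul_apply, Equiv.sumCongr_apply, Sum.map_inl]
    fin_cases p
    · show Sz (τ 0) (Sz (τ 1) (Sz (τ 2) (Sum.inl (ρ 0)))) = τ 0
      rw [h0, Sz_fix (τ 2) (Sum.inl (ab (τ 0))) (hne 0 2 (by decide)),
        Sz_fix (τ 1) (Sum.inl (ab (τ 0))) (hne 0 1 (by decide)), Sz_self]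
    · show Sz (τ 0) (Sz (τ 1) (Sz (τ 2) (Sum.inl (ρ 1)))) = τ 1
      rw [h1, Sz_fix (τ 2) (Sum.inl (ab (τ 1))) (hne 1 2 (by decide)), Sz_self,
        Sz_fix (τ 0) _ (hne 1 0 (by decide))]
    · show Sz (τ 0) (Sz (τ 1) (Sz (τ 2) (Sum.inl (ρ 2)))) = τ 2
      rw [h2, Sz_self, Sz_fix (τ 1) _ (hne 2 1 (by decide)), Sz_fix (τ 0) _ (hne 2 0 (by decide))]
  have hinj : (Sum.inl ((![0, 1, 2] : Fin 3 → Fin (m + 3)) p) : I (m + 3)) ≠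
      Sum.inl ((![0, 1, 2] : Fin 3 → Fin (m + 3)) q) := by
    intro h
    have h3 := congrArg (Sz (τ 0) * Sz (τ 1) * Sz (τ 2) * Equiv.sumCongr ρ ρ) h
    rw [hk, hk] at h3
    exact hne p q hpq (by rw [h3])
  obtain ⟨t', ht'⟩ := hall _ _ hinj t
  rw [hk, hk] at ht'
  exact ⟨t', ht'⟩

end Cfsg.Agent.Lib.Helper73SpPtrans
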