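import Mathlib

set_option autoImplicit false

namespace Cfsg.Agent.Lib.Helper73Sylow

/-- A subgroup of index prime to `p` contains a Sylow `p`-subgroup. -/
theorem exists_sylow_le_of_not_dvd_index {G : Type*} [Group G] [Finite G] {p : ℕ} [Fact p.Prime]
    (H : Subgroup G) (h : ¬ p ∣ H.index) : ∃ P : Sylow p G, (P : Subgroup G) ≤ H := by
  let Q₀ : Sylow p H := Sylow.nonempty.some
  let Q : Subgroup G := Q₀.map H.subtype
  have hpQ : IsPGroup p Q := Q₀.2.map H.subtype
  have hQ : ¬ p ∣ Q.index := by
    rw [Subgroup.index_map_subtype Q₀.1]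
    exact Nat.Prime.not_dvd_mul Fact.out Q₀.not_dvd_index h
  exact ⟨hpQ.toSylow hQ, Subgroup.map_subtype_le Q₀.1⟩

/-- If `N(P) ≠ C(P)` then `2 |C(P)| ≤ |N(P)|`. -/
theorem two_mul_card_centralizer_le {G : Type*} [Group G] [Finite G] (P : Subgroup G)
    (h : ¬ Subgroup.normalizer (P : Set G) ≤ Subgroup.centralizer (P : Set G)) :
    2 * Nat.card (Subgroup.centralizer (P : Set G)) ≤ Nat.card (Subgroup.normalizer (P : Set G)) := by
  have hle : Subgroup.centralizer (P : Set G) ≤ Subgroup.normalizer (P : Set G) :=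
    Subgroup.centralizer_le_normalizer _
  obtain ⟨k, hk⟩ := Subgroup.card_dvd_of_le hle
  have hpos : 0 < Nat.card (Subgroup.normalizer (P : Set G)) := Nat.card_pos
  have hposC : 0 < Nat.card (Subgroup.centralizer (P : Set G)) := Nat.card_pos
  have hk1 : k ≠ 1 := by
    intro h1
    rw [h1, mul_one] at hk
    exact h (Subgroup.eq_of_le_of_card_ge hle hk.le).ge
  have hk0 : k ≠ 0 := by
    intro h0
    rw [h0, mul_zero] at hk
    omega
  have hk2 : 2 ≤ k := by omega
  rw [hk, mul_comm]
  exact Nat.mul_le_mul_left _ hk2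

/-- The set of elements centralizing some Sylow `p`-subgroup has at most `|G|/2` elements, unless
some Sylow `p`-subgroup satisfies Burnside's condition. -/
theorem two_mul_ncard_centralizing_le {G : Type*} [Group G] [Finite G] {p : ℕ} [Fact p.Prime]
    (h : ∀ P : Sylow p G, ¬ Subgroup.normalizer ((P : Subgroup G) : Set G) ≤
      Subgroup.centralizer ((P : Subgroup G) : Set G)) :
    2 * ({x : G | ∃ P : Sylow p G, (P : Subgroup G) ≤ Subgroup.centralizer ({x} : Set G)} :
      Set G).ncard ≤ Nat.card G := by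
  classical
  have : Fintype (Sylow p G) := Fintype.ofFinite _
  have hsub : ({x : G | ∃ P : Sylow p G, (P : Subgroup G) ≤ Subgroup.centralizer ({x} : Set G)} :
      Set G) ⊆ ⋃ P : Sylow p G, (Subgroup.centralizer ((P : Subgroup G) : Set G) : Set G) := by
    rintro x ⟨P, hP⟩
    refine Set.mem_iUnion.mpr ⟨P, ?_⟩
    rw [SetLike.mem_coe, Subgroup.mem_centralizer_iff]
    intro y hy
    have := (Subgroup.mem_centralizer_iff.mp (hP hy)) x rfl
    exact this.symm
  have h1 := Set.ncard_le_ncard hsub (Set.toFinite _)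
  have h2 : (⋃ P : Sylow p G, (Subgroup.centralizer ((P : Subgroup G) : Set G) : Set G)).ncard ≤
      ∑ P : Sylow p G, Nat.card (Subgroup.centralizer ((P : Subgroup G) : Set G)) := by
    have := Set.ncard_iUnion_le_of_fintype
      (fun P : Sylow p G => (Subgroup.centralizer ((P : Subgroup G) : Set G) : Set G))
    refine this.trans (le_of_eq ?_)
    refine Finset.sum_congr rfl fun P _ => ?_
    exact (Nat.card_coe_set_eq _).symm
  have h3 : ∑ P : Sylow p G, 2 * Nat.card (Subgroup.centralizer ((P : Subgroup G) : Set G)) ≤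
      ∑ P : Sylow p G, Nat.card (Subgroup.normalizer ((P : Subgroup G) : Set G)) :=
    Finset.sum_le_sum fun P _ => two_mul_card_centralizer_le _ (h P)
  have h4 : ∀ P : Sylow p G, Fintype.card (Sylow p G) *
      Nat.card (Subgroup.normalizer ((P : Subgroup G) : Set G)) = Nat.card G := by
    intro P
    rw [← Nat.card_eq_fintype_card, P.card_eq_index_normalizer, mul_comm]
    exact Subgroup.card_mul_index _
  obtain ⟨P0⟩ : Nonempty (Sylow p G) := Sylow.nonempty
  have h5 : ∀ P : Sylow p G, Nat.card (Subgroup.normalizer ((P : Subgroup G) : Set G)) =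
      Nat.card (Subgroup.normalizer ((P0 : Subgroup G) : Set G)) := by
    intro P
    have hpos : 0 < Fintype.card (Sylow p G) := Fintype.card_pos
    exact Nat.eq_of_mul_eq_mul_left hpos ((h4 P).trans (h4 P0).symm)
  have h6 : ∑ P : Sylow p G, Nat.card (Subgroup.normalizer ((P : Subgroup G) : Set G)) =
      Nat.card G := by
    rw [Finset.sum_congr rfl (fun P _ => h5 P), Finset.sum_const, Finset.card_univ, smul_eq_mul]
    exact h4 P0
  rw [← Finset.mul_sum] at h3
  omega

end Cfsg.Agent.Lib.Helper73Sylow
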