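import Mathlib.GroupTheory.SpecificGroups.Alternating
import Mathlib.GroupTheory.Perm.Cycle.Type
import Mathlib.GroupTheory.Index
import Cfsg.Agent.Lib.Helper40Sylow
import Cfsg.Agent.Lib.Helper74Pronormal

set_option autoImplicit false
set_option linter.unusedSectionVars false

namespace Cfsg.Agent.Lib.Helper74SymSylow

open Equiv Equiv.Perm Subgroup Cfsg.Agent.Lib.Helper40Sylow Cfsg.Agent.Lib.Helper74Pronormal

section Pairing

variable {α : Type*} [DecidableEq α]

/-- a pairing: an involution with at most one fixed point -/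
structure IsPairing (z : Perm α) : Prop where
  sq : ∀ a, z (z a) = a
  fix : ∀ a b, z a = a → z b = b → a = b

theorem exists_isPairing [Fintype α] : ∃ z : Perm α, IsPairing z := by
  obtain ⟨z, hz, hmax⟩ := Finset.exists_max_image
    (Finset.univ.filter (fun σ : Perm α => σ * σ = 1)) (fun σ => σ.support.card)
    ⟨1, by simp⟩
  have hz2 : z * z = 1 := (Finset.mem_filter.1 hz).2
  refine ⟨z, fun a => ?_, fun a b ha hb => ?_⟩
  · have := congrArg (fun σ : Perm α => σ a) hz2
    simpa using this
  · by_contra hab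
    have hd : Disjoint z (swap a b) := by
      intro x
      by_cases hxa : x = a
      · left; rw [hxa, ha]
      · by_cases hxb : x = b
        · left; rw [hxb, hb]
        · right; exact swap_apply_of_ne_of_ne hxa hxb
    have hc := hd.commute
    have h1 : (z * swap a b) * (z * swap a b) = 1 := by
      calc (z * swap a b) * (z * swap a b) = z * (swap a b * z) * swap a b := by group
        _ = z * (z * swap a b) * swap a b := by rw [hc.eq]
        _ = (z * z) * (swap a b * swap a b) := by group
        _ = 1 := by rw [hz2, swap_mul_self, one_mul]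
    have h2 := hmax (z * swap a b) (Finset.mem_filter.2 ⟨Finset.mem_univ _, h1⟩)
    rw [hd.card_support_mul, card_support_swap hab] at h2
    omega

theorem sq_of_forall {z σ : Perm α} (hz : IsPairing z) (h : ∀ a, σ a = a ∨ σ a = z a) :
    σ * σ = 1 := by
  ext a
  show σ (σ a) = a
  rcases h a with h1 | h1
  · rw [h1, h1]
  · rcases h (z a) with h2 | h2
    · have h3 : z a = a := σ.injective (h2.trans h1.symm)
      rw [h1, h2, h3]
    · rw [h1, h2, hz.sq]

/-- the elementary abelian group of permutations preserving every pair -/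
def EE (z : Perm α) (hz : IsPairing z) : Subgroup (Perm α) where
  carrier := {σ | ∀ a, σ a = a ∨ σ a = z a}
  one_mem' := fun a => Or.inl rfl
  mul_mem' := by
    intro σ τ hσ hτ a
    show σ (τ a) = a ∨ σ (τ a) = z a
    rcases hτ a with h1 | h1
    · rw [h1]; exact hσ a
    · rw [h1]
      rcases hσ (z a) with h2 | h2
      · right; exact h2
      · left; rw [h2, hz.sq]
  inv_mem' := by
    intro σ hσ
    have h1 : σ⁻¹ = σ := inv_eq_of_mul_eq_one_left (sq_of_forall hz hσ)
    rw [h1]; exact hσ

theorem mem_EE {z : Perm α} {hz : IsPairing z} {σ : Perm α} :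
    σ ∈ EE z hz ↔ ∀ a, σ a = a ∨ σ a = z a := Iff.rfl

theorem isPGroup_EE (z : Perm α) (hz : IsPairing z) : IsPGroup 2 (EE z hz) := by
  rintro ⟨σ, hσ⟩
  refine ⟨1, ?_⟩
  apply Subtype.ext
  show σ ^ (2 ^ 1) = 1
  rw [pow_one, pow_two]
  exact sq_of_forall hz hσ

theorem swap_mem_EE (z : Perm α) (hz : IsPairing z) (a : α) : swap a (z a) ∈ EE z hz := by
  intro x
  by_cases hxa : x = a
  · right; rw [hxa, swap_apply_left]
  · by_cases hxb : x = z a
    · right; rw [hxb, swap_apply_right, hz.sq]
    · left; exact swap_apply_of_ne_of_ne hxa hxb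

/-- a `2`-group contains no product of two transpositions sharing exactly one point -/
theorem not_mem_of_isPGroup {S : Subgroup (Perm α)} [Fintype α] (hS : IsPGroup 2 S) {a b c : α}
    (ab : a ≠ b) (ac : a ≠ c) (bc : b ≠ c) : swap a b * swap a c ∉ S := by
  intro h
  obtain ⟨k, hk⟩ := hS ⟨_, h⟩
  have h1 : (swap a b * swap a c) ^ (2 ^ k) = 1 := congrArg Subtype.val hk
  have h2 := orderOf_dvd_of_pow_eq_one h1
  rw [(isThreeCycle_swap_mul_swap_same ab ac bc).orderOf] at h2
  have h3 := (Nat.prime_dvd_prime_iff_eq Nat.prime_three Nat.prime_two).1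
    (Nat.prime_three.dvd_of_dvd_pow h2)
  omega

/-- the transpositions of the pairing -/
abbrev Bz (z : Perm α) : Type _ := {t : Perm α // ∃ a, z a ≠ a ∧ t = swap a (z a)}

theorem comm_of_mem {z g : Perm α} (hg : g ∈ centralizer ({z} : Set (Perm α))) (a : α) :
    g (z a) = z (g a) := by
  rw [mem_centralizer_singleton_iff] at hg
  have := congrArg (fun σ : Perm α => σ a) hg
  exact this

theorem mem_of_comm {z g : Perm α} (h : ∀ a, g (z a) = z (g a)) :
    g ∈ centralizer ({z} : Set (Perm α)) := by
  rw [mem_centralizer_singleton_iff]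
  ext a
  exact h a

theorem conj_mem_Bz {z g : Perm α} (hg : g ∈ centralizer ({z} : Set (Perm α))) {t : Perm α}
    (ht : ∃ a, z a ≠ a ∧ t = swap a (z a)) : ∃ a, z a ≠ a ∧ g * t * g⁻¹ = swap a (z a) := by
  obtain ⟨a, ha, rfl⟩ := ht
  refine ⟨g a, ?_, ?_⟩
  · rw [← comm_of_mem hg]
    exact fun h => ha (g.injective h)
  · rw [← swap_apply_apply, comm_of_mem hg]

instance instMulActionBz (z : Perm α) : MulAction ↥(centralizer ({z} : Set (Perm α))) (Bz z) where
  smul g t := ⟨g * t.1 * g⁻¹, conj_mem_Bz g.2 t.2⟩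
  one_smul t := Subtype.ext (by show ((1 : ↥(centralizer ({z} : Set (Perm α)))) : Perm α) * t.1 *
    ((1 : ↥(centralizer ({z} : Set (Perm α)))) : Perm α)⁻¹ = t.1; simp)
  mul_smul g h t := Subtype.ext (by
    show ((g * h : ↥(centralizer ({z} : Set (Perm α)))) : Perm α) * t.1 *
      ((g * h : ↥(centralizer ({z} : Set (Perm α)))) : Perm α)⁻¹ =
      (g : Perm α) * ((h : Perm α) * t.1 * (h : Perm α)⁻¹) * (g : Perm α)⁻¹
    simp [mul_assoc])

theorem smul_Bz_val {z : Perm α} (g : ↥(centralizer ({z} : Set (Perm α)))) (t : Bz z) :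
    (g • t).1 = (g : Perm α) * t.1 * (g : Perm α)⁻¹ := rfl

/-- the action on the pairs -/
def phi (z : Perm α) : ↥(centralizer ({z} : Set (Perm α))) →* Perm (Bz z) :=
  MulAction.toPermHom _ _

theorem phi_apply {z : Perm α} (g : ↥(centralizer ({z} : Set (Perm α)))) (t : Bz z) :
    phi z g t = g • t := rfl

theorem mem_EE_of_phi_eq_one {z : Perm α} (hz : IsPairing z)
    (g : ↥(centralizer ({z} : Set (Perm α)))) (hg : phi z g = 1) : (g : Perm α) ∈ EE z hz := by
  intro a
  by_cases ha : z a = a
  · left
    apply hz.fix _ _ _ ha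
    rw [← comm_of_mem g.2, ha]
  · have h1 : phi z g ⟨swap a (z a), a, ha, rfl⟩ = ⟨swap a (z a), a, ha, rfl⟩ := by
      rw [hg]; rfl
    have h2 := congrArg Subtype.val h1
    rw [phi_apply, smul_Bz_val, ← swap_apply_apply] at h2
    by_contra hcon
    push Not at hcon
    have h3 := congrArg (fun σ : Perm α => σ ((g : Perm α) a)) h2
    simp only [swap_apply_left] at h3
    rw [swap_apply_of_ne_of_ne hcon.1 hcon.2] at h3
    exact ha ((g : Perm α).injective h3)

theorem phi_eq_one_of_mem_EE {z : Perm α} (hz : IsPairing z)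
    (g : ↥(centralizer ({z} : Set (Perm α)))) (hg : (g : Perm α) ∈ EE z hz) : phi z g = 1 := by
  ext1 t
  obtain ⟨t, a, ha, rfl⟩ := t
  apply Subtype.ext
  rw [phi_apply, smul_Bz_val, ← swap_apply_apply]
  show swap ((g : Perm α) a) ((g : Perm α) (z a)) = swap a (z a)
  rcases hg a with h1 | h1
  · rw [comm_of_mem g.2, h1]
  · rw [comm_of_mem g.2, h1, hz.sq, swap_comm]

theorem EE_le_centralizer {z : Perm α} (hz : IsPairing z) :
    EE z hz ≤ centralizer ({z} : Set (Perm α)) := by
  intro σ hσ
  apply mem_of_comm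
  intro a
  rcases hσ a with h1 | h1
  · rw [h1]
    rcases hσ (z a) with h2 | h2
    · exact h2
    · rw [hz.sq] at h2
      have h3 : z a = a := σ.injective (h2.trans h1.symm)
      rw [h3, h1]
  · rw [h1, hz.sq]
    rcases hσ (z a) with h2 | h2
    · have h3 : z a = a := σ.injective (h2.trans h1.symm)
      rw [h2, h3]
    · rw [h2, hz.sq]

theorem phi_surjective [Finite α] {z : Perm α} (hz : IsPairing z) :
    Function.Surjective (phi z) := by
  classical
  rw [← MonoidHom.range_eq_top, eq_top_iff, ← closure_isSwap, closure_le]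
  rintro σ ⟨t1, t2, hne, rfl⟩
  obtain ⟨t1, a, ha, rfl⟩ := t1
  obtain ⟨t2, b, hb, rfl⟩ := t2
  have hab : a ≠ b := by
    rintro rfl
    exact hne rfl
  have hazb : a ≠ z b := by
    rintro rfl
    apply hne
    apply Subtype.ext
    show swap (z b) (z (z b)) = swap b (z b)
    rw [hz.sq, swap_comm]
  have hzab : z a ≠ b := by
    intro h
    apply hazb
    rw [← h, hz.sq]
  have hzazb : z a ≠ z b := fun h => hab (z.injective h)
  have hcomm : swap (z a) (z b) * swap a b = swap a b * swap (z a) (z b) := by
    have hd : Disjoint (swap (z a) (z b)) (swap a b) := by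
      apply disjoint_swap_swap
      simp only [List.nodup_cons, List.mem_cons, List.not_mem_nil, or_false, not_or,
        List.nodup_nil, and_true, not_false_eq_true]
      exact ⟨⟨hzazb, ha, hzab⟩, ⟨hazb.symm, hb⟩, hab⟩
    exact hd.commute.eq
  have hg : swap a b * swap (z a) (z b) ∈ centralizer ({z} : Set (Perm α)) := by
    rw [mem_centralizer_singleton_iff]
    symm
    calc z * (swap a b * swap (z a) (z b)) = (z * swap a b) * swap (z a) (z b) := by group
      _ = swap (z a) (z b) * (z * swap (z a) (z b)) := by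
          rw [mul_swap_eq_swap_mul z a b]; group
      _ = swap (z a) (z b) * (swap a b * z) := by rw [mul_swap_eq_swap_mul, hz.sq, hz.sq]
      _ = (swap (z a) (z b) * swap a b) * z := by group
      _ = swap a b * swap (z a) (z b) * z := by rw [hcomm]
  have ga : (swap a b * swap (z a) (z b)) a = b := by
    rw [Perm.mul_apply, swap_apply_of_ne_of_ne (Ne.symm ha) hazb, swap_apply_left]
  have gb : (swap a b * swap (z a) (z b)) b = a := by
    rw [Perm.mul_apply, swap_apply_of_ne_of_ne (Ne.symm hzab) (Ne.symm hb), swap_apply_right]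
  have gc : ∀ c, c ≠ a → c ≠ b → c ≠ z a → c ≠ z b → (swap a b * swap (z a) (z b)) c = c := by
    intro c h1 h2 h3 h4
    rw [Perm.mul_apply, swap_apply_of_ne_of_ne h3 h4, swap_apply_of_ne_of_ne h1 h2]
  refine ⟨⟨_, hg⟩, ?_⟩
  ext1 t
  apply Subtype.ext
  rw [phi_apply, smul_Bz_val]
  obtain ⟨t, c, hc, rfl⟩ := t
  show (swap a b * swap (z a) (z b)) * swap c (z c) * (swap a b * swap (z a) (z b))⁻¹ = _
  rw [← swap_apply_apply, comm_of_mem hg]
  by_cases h1 : c = a
  · subst h1
    rw [ga, swap_apply_left]
  by_cases h2 : c = b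
  · subst h2
    rw [gb, swap_apply_right]
  by_cases h3 : c = z a
  · subst h3
    rw [comm_of_mem hg, ga]
    have e1 : (⟨swap (z a) (z (z a)), z a, hc, rfl⟩ : Bz z) = ⟨swap a (z a), a, ha, rfl⟩ := by
      apply Subtype.ext
      show swap (z a) (z (z a)) = swap a (z a)
      rw [hz.sq, swap_comm]
    rw [e1, swap_apply_left, hz.sq, swap_comm]
  by_cases h4 : c = z b
  · subst h4
    rw [comm_of_mem hg, gb]
    have e1 : (⟨swap (z b) (z (z b)), z b, hc, rfl⟩ : Bz z) = ⟨swap b (z b), b, hb, rfl⟩ := by
      apply Subtype.ext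
      show swap (z b) (z (z b)) = swap b (z b)
      rw [hz.sq, swap_comm]
    rw [e1, swap_apply_right, hz.sq, swap_comm]
  · rw [gc c h1 h2 h3 h4]
    rw [swap_apply_of_ne_of_ne]
    · intro h
      have h5 := congrArg Subtype.val h
      have h6 : swap c (z c) = swap a (z a) := h5
      have h7 := congrArg (fun σ : Perm α => σ c) h6
      simp only [swap_apply_left] at h7
      rw [swap_apply_of_ne_of_ne h1 h3] at h7
      exact hc h7
    · intro h
      have h5 := congrArg Subtype.val h
      have h6 : swap c (z c) = swap b (z b) := h5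
      have h7 := congrArg (fun σ : Perm α => σ c) h6
      simp only [swap_apply_left] at h7
      rw [swap_apply_of_ne_of_ne h2 h4] at h7
      exact hc h7

theorem card_Bz_lt [Finite α] [Nonempty α] {z : Perm α} (hz : IsPairing z) :
    Nat.card (Bz z) < Nat.card α := by
  classical
  have := Fintype.ofFinite α
  by_cases hex : ∃ a, z a ≠ a
  · obtain ⟨a, ha⟩ := hex
    let f : {a // z a ≠ a} → Bz z := fun a => ⟨swap a.1 (z a.1), a.1, a.2, rfl⟩
    have hf : Function.Surjective f := by
      rintro ⟨t, c, hc, rfl⟩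
      exact ⟨⟨c, hc⟩, rfl⟩
    have hf2 : ¬ Function.Injective f := by
      intro hinj
      have hza : z (z a) ≠ z a := fun h => ha (z.injective h)
      have h1 : f ⟨a, ha⟩ = f ⟨z a, hza⟩ := by
        apply Subtype.ext
        show swap a (z a) = swap (z a) (z (z a))
        rw [hz.sq, swap_comm]
      have h2 := congrArg Subtype.val (hinj h1)
      exact ha h2.symm
    have h3 := Fintype.card_lt_of_surjective_not_injective f hf hf2
    rw [Nat.card_eq_fintype_card, Nat.card_eq_fintype_card]
    exact lt_of_lt_of_le h3 (Fintype.card_subtype_le _)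
  · push Not at hex
    have : IsEmpty (Bz z) := ⟨fun t => by
      obtain ⟨t, c, hc, -⟩ := t
      exact hc (hex c)⟩
    rw [Nat.card_of_isEmpty]
    exact Nat.card_pos

end Pairing

section Main

universe u

/-- Sylow `2`-subgroups of `Perm β` are self-normalizing -/
def SN (β : Type*) : Prop :=
  ∀ Q : Sylow 2 (Perm β), normalizer ((Q : Subgroup (Perm β)) : Set (Perm β)) ≤ Q

/-- involutions normalizing a relative Sylow `2`-subgroup lie in it -/
theorem mem_of_sq_eq_one {G : Type*} [Group G] [Finite G] {S D : Subgroup G}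
    (hS : IsSylowIn 2 S D) {t : G} (htD : t ∈ D) (htN : t ∈ normalizer (S : Set G))
    (ht : t * t = 1) : t ∈ S := by
  have h1 : IsPGroup 2 (zpowers t) := by
    rintro ⟨g, hg⟩
    obtain ⟨k, rfl⟩ := mem_zpowers_iff.1 hg
    refine ⟨1, Subtype.ext ?_⟩
    show (t ^ k) ^ (2 ^ 1) = 1
    rw [pow_one, ← zpow_natCast, ← zpow_mul, mul_comm, zpow_mul, zpow_natCast, pow_two, ht,
      one_zpow]
  have h2 : IsPGroup 2 (zpowers t ⊔ S : Subgroup G) :=
    h1.to_sup_of_normal_right' hS.2.1 (by rw [zpowers_le]; exact htN)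
  have h3 := hS.eq_of_le h2 (sup_le (by rw [zpowers_le]; exact htD) hS.1) le_sup_right
  rw [h3]
  exact mem_sup_left (mem_zpowers t)

variable {α : Type u} [DecidableEq α] [Finite α]

theorem eq_of_swap_mem {z : Perm α} (hz : IsPairing z) (X : Subgroup (Perm α))
    (H : ∀ a b, z a ≠ a → a ≠ b → b ≠ z a → swap a b ∉ X) (a b : α) (hab : a ≠ b)
    (h : swap a b ∈ X) : b = z a := by
  by_cases ha : z a = a
  · have hb : z b ≠ b := fun hb => hab (hz.fix a b ha hb)
    by_contra hcon
    rw [swap_comm] at h
    refine H b a hb hab.symm ?_ h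
    intro h2
    apply hcon
    rw [h2, hz.sq]
  · by_contra hcon
    exact H a b ha hab hcon h

theorem main_step {z : Perm α} (hz : IsPairing z) (hβ : SN (Bz z)) (P S : Subgroup (Perm α))
    (hP : IsSylowIn 2 P ⊤) (hEP : EE z hz ≤ P)
    (hPS : ∀ y ∈ P, ∃ e ∈ EE z hz, y * e ∈ S) (hSP : S ≤ P)
    (hPM : P ≤ normalizer (S : Set (Perm α)))
    (hsw : ∀ a b, a ≠ b → swap a b ∈ normalizer (S : Set (Perm α)) → b = z a) :
    normalizer (S : Set (Perm α)) ≤ P := by
  have key : ∀ x ∈ normalizer (S : Set (Perm α)), ∀ a, z a ≠ a → x (z a) = z (x a) := by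
    intro x hx a ha
    apply hsw (x a) (x (z a)) (fun h => ha (x.injective h).symm)
    rw [swap_apply_apply]
    exact mul_mem (mul_mem hx (hPM (hEP (swap_mem_EE z hz a)))) (inv_mem hx)
  have hMW : normalizer (S : Set (Perm α)) ≤ centralizer ({z} : Set (Perm α)) := by
    intro x hx
    apply mem_of_comm
    intro a
    by_cases ha : z a = a
    · by_contra hcon
      rw [ha] at hcon
      have h1 := key x⁻¹ (inv_mem hx) (x a) (fun h => hcon h.symm)
      have e1 : x⁻¹ (x a) = a := Perm.inv_eq_iff_eq.mpr rfl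
      rw [e1, ha] at h1
      apply hcon
      exact (Perm.inv_eq_iff_eq.1 h1).symm
    · exact key x hx a ha
  have hPW : P ≤ centralizer ({z} : Set (Perm α)) := hPM.trans hMW
  have hPs : IsSylowIn 2 P (centralizer ({z} : Set (Perm α))) := hP.of_le hPW le_top
  have hmap : (S.subgroupOf (centralizer ({z} : Set (Perm α)))).map (phi z) =
      (P.subgroupOf (centralizer ({z} : Set (Perm α)))).map (phi z) := by
    apply le_antisymm (map_mono (comap_mono hSP))
    rintro _ ⟨y, hy, rfl⟩
    obtain ⟨e, he, hye⟩ := hPS y hy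
    refine ⟨y * ⟨e, EE_le_centralizer hz he⟩, hye, ?_⟩
    rw [map_mul, phi_eq_one_of_mem_EE hz ⟨e, EE_le_centralizer hz he⟩ he, mul_one]
  intro x hx
  have hxn : phi z ⟨x, hMW hx⟩ ∈ normalizer
      (((hPs.toSylow.mapSurjective (phi_surjective hz) : Sylow 2 (Perm (Bz z))) :
        Subgroup (Perm (Bz z))) : Set (Perm (Bz z))) := by
    rw [mem_normalizer_iff_cj, Sylow.coe_mapSurjective, IsSylowIn.coe_toSylow, ← hmap, ← map_cj]
    congr 1
    unfold subgroupOf
    rw [cj_comap]
    congr 1
    exact mem_normalizer_iff_cj.1 hx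
  have h2 := hβ _ hxn
  rw [Sylow.coe_mapSurjective, IsSylowIn.coe_toSylow] at h2
  obtain ⟨y, hy, hye⟩ := h2
  have h3 : phi z (y⁻¹ * ⟨x, hMW hx⟩) = 1 := by
    rw [map_mul, map_inv, hye, inv_mul_cancel]
  have h4 := hEP (mem_EE_of_phi_eq_one hz _ h3)
  have h5 : x = (y : Perm α) * ((y⁻¹ * ⟨x, hMW hx⟩ : ↥(centralizer ({z} : Set (Perm α)))) :
      Perm α) := by
    show x = (y : Perm α) * ((y : Perm α)⁻¹ * x)
    group
  rw [h5]
  exact mul_mem hy h4

theorem sn_aux (n : ℕ) : ∀ (α : Type u) [Finite α], Nat.card α = n → SN α := by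
  induction n using Nat.strong_induction_on with
  | _ n ih =>
    intro α _ hn
    classical
    have := Fintype.ofFinite α
    by_cases hne : Nonempty α
    · obtain ⟨z, hz⟩ := exists_isPairing (α := α)
      obtain ⟨P, hP⟩ := (isPGroup_EE z hz).exists_le_sylow
      have hβ : SN (Bz z) := ih _ (by rw [← hn]; exact card_Bz_lt hz) (Bz z) rfl
      have hmain : normalizer ((P : Subgroup (Perm α)) : Set (Perm α)) ≤ P := by
        apply main_step hz hβ P P (isSylowIn_top P) hP
          (fun y hy => ⟨1, one_mem _, by rwa [mul_one]⟩) le_rfl le_normalizer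
        apply eq_of_swap_mem hz
        intro a b ha hab hb h
        have h1 : swap a b ∈ (P : Subgroup (Perm α)) :=
          mem_of_sq_eq_one (isSylowIn_top P) (mem_top _) h (swap_mul_self a b)
        exact not_mem_of_isPGroup P.2 hab (Ne.symm ha) hb
          (mul_mem h1 (hP (swap_mem_EE z hz a)))
      intro Q
      obtain ⟨g, rfl⟩ := MulAction.exists_smul_eq (Perm α) P Q
      rw [sylow_smul_eq_cj, normalizer_cj]
      exact cj_mono hmain
    · rw [not_nonempty_iff] at hne
      intro Q x _
      rw [Subsingleton.elim x 1]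
      exact one_mem _

theorem sn (α : Type u) [Finite α] : SN α := sn_aux _ α rfl

end Main

section Alt

variable {α : Type*} [DecidableEq α] [Fintype α]

theorem exists_third {z : Perm α} (hz : IsPairing z) (hn : 6 ≤ Fintype.card α) (a b : α) :
    ∃ d, z d ≠ d ∧ d ≠ a ∧ d ≠ z a ∧ d ≠ b ∧ d ≠ z b := by
  by_contra hcon
  push Not at hcon
  have h1 : (Finset.univ : Finset α) ⊆ {a, z a, b, z b} ∪ Finset.univ.filter (fun d => z d = d) := by
    intro d _
    by_cases hd : z d = d
    · exact Finset.mem_union_right _ (Finset.mem_filter.2 ⟨Finset.mem_univ _, hd⟩)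
    · apply Finset.mem_union_left
      simp only [Finset.mem_insert, Finset.mem_singleton]
      by_contra h2
      push Not at h2
      exact h2.2.2.2 (hcon d hd h2.1 h2.2.1 h2.2.2.1)
  have h2 : (Finset.univ.filter (fun d => z d = d)).card ≤ 1 := by
    rw [Finset.card_le_one]
    intro x hx y hy
    exact hz.fix x y (Finset.mem_filter.1 hx).2 (Finset.mem_filter.1 hy).2
  have h3 : ({a, z a, b, z b} : Finset α).card ≤ 4 := Finset.card_le_four
  have h4 := Finset.card_le_card h1
  have h5 := Finset.card_union_le ({a, z a, b, z b} : Finset α)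
    (Finset.univ.filter (fun d => z d = d))
  rw [Finset.card_univ] at h4
  omega

/-- Sylow `2`-subgroups of alternating groups of degree at least `6` are self-normalizing -/
theorem sna (hn : 6 ≤ Fintype.card α) (S : Subgroup (Perm α))
    (hS : IsSylowIn 2 S (alternatingGroup α)) :
    normalizer (S : Set (Perm α)) ⊓ alternatingGroup α ≤ S := by
  obtain ⟨z, hz⟩ := exists_isPairing (α := α)
  obtain ⟨P, hP⟩ := (isPGroup_EE z hz).exists_le_sylow
  have hS0 : IsSylowIn 2 ((P : Subgroup (Perm α)) ⊓ alternatingGroup α) (alternatingGroup α) :=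
    (isSylowIn_top P).inf_normal le_top (by rw [normalizer_eq_top_iff.2 inferInstance])
  have hPM : (P : Subgroup (Perm α)) ≤
      normalizer (((P : Subgroup (Perm α)) ⊓ alternatingGroup α : Subgroup (Perm α)) :
        Set (Perm α)) := by
    intro y hy
    rw [mem_normalizer_iff_cj, cj_inf, cj_eq_self_of_mem hy, cj_normal]
  have hmain : normalizer (((P : Subgroup (Perm α)) ⊓ alternatingGroup α : Subgroup (Perm α)) :
      Set (Perm α)) ≤ P := by
    apply main_step hz (sn _) P _ (isSylowIn_top P) hP _ inf_le_left hPM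
    · apply eq_of_swap_mem hz
      intro a b ha hab hb h
      obtain ⟨d, hd, hda, hdza, hdb, hdzb⟩ := exists_third hz hn a b
      have hzda : z d ≠ a := by
        intro h1; apply hdza; rw [← h1, hz.sq]
      have hzdza : z d ≠ z a := fun h1 => hda (z.injective h1)
      have hzdb : z d ≠ b := by
        intro h1; apply hdzb; rw [← h1, hz.sq]
      have hu : swap d (z d) ∈ (P : Subgroup (Perm α)) := hP (swap_mem_EE z hz d)
      have c1 : Commute (swap a b) (swap d (z d)) := by
        apply Disjoint.commute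
        apply disjoint_swap_swap
        simp only [List.nodup_cons, List.mem_cons, List.not_mem_nil, or_false, not_or,
          List.nodup_nil, and_true, not_false_eq_true]
        exact ⟨⟨hab, hda.symm, hzda.symm⟩, ⟨hdb.symm, hzdb.symm⟩, hd.symm⟩
      have c2 : Commute (swap a (z a)) (swap d (z d)) := by
        apply Disjoint.commute
        apply disjoint_swap_swap
        simp only [List.nodup_cons, List.mem_cons, List.not_mem_nil, or_false, not_or,
          List.nodup_nil, and_true, not_false_eq_true]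
        exact ⟨⟨ha.symm, hda.symm, hzda.symm⟩, ⟨hdza.symm, hzdza.symm⟩, hd.symm⟩
      have hmem : ∀ t : Perm α, t ∈ normalizer (((P : Subgroup (Perm α)) ⊓ alternatingGroup α :
          Subgroup (Perm α)) : Set (Perm α)) → t * t = 1 → sign t = -1 →
          Commute t (swap d (z d)) →
          t * swap d (z d) ∈ (P : Subgroup (Perm α)) ⊓ alternatingGroup α := by
        intro t ht1 ht2 ht3 ht4
        apply mem_of_sq_eq_one hS0
        · rw [mem_alternatingGroup, Perm.sign_mul, ht3, sign_swap hd.symm]; rfl
        · exact mul_mem ht1 (hPM hu)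
        · calc t * swap d (z d) * (t * swap d (z d)) = t * (swap d (z d) * t) * swap d (z d) := by
                group
            _ = t * (t * swap d (z d)) * swap d (z d) := by rw [ht4.eq]
            _ = (t * t) * (swap d (z d) * swap d (z d)) := by group
            _ = 1 := by rw [ht2, swap_mul_self, one_mul]
      have m1 := hmem _ h (swap_mul_self a b) (sign_swap hab) c1
      have m2 := hmem _ (hPM (hP (swap_mem_EE z hz a))) (swap_mul_self a (z a))
        (sign_swap ha.symm) c2
      have m3 := mul_mem m1 m2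
      have e : swap a b * swap d (z d) * (swap a (z a) * swap d (z d)) =
          swap a b * swap a (z a) := by
        calc swap a b * swap d (z d) * (swap a (z a) * swap d (z d))
            = swap a b * (swap d (z d) * swap a (z a)) * swap d (z d) := by group
          _ = swap a b * (swap a (z a) * swap d (z d)) * swap d (z d) := by rw [c2.eq]
          _ = swap a b * swap a (z a) * (swap d (z d) * swap d (z d)) := by group
          _ = swap a b * swap a (z a) := by rw [swap_mul_self, mul_one]
      rw [e] at m3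
      exact not_mem_of_isPGroup hS0.2.1 hab ha.symm hb m3
    · intro y hy
      rcases Int.units_eq_one_or (sign y) with h1 | h1
      · exact ⟨1, one_mem _, by rw [mul_one]; exact ⟨hy, mem_alternatingGroup.2 h1⟩⟩
      · have hα : Nonempty α := by
          rw [← Fintype.card_pos_iff]; omega
        obtain ⟨a⟩ := hα
        obtain ⟨d, hd, -⟩ := exists_third hz hn a a
        refine ⟨swap d (z d), swap_mem_EE z hz d, mul_mem hy (hP (swap_mem_EE z hz d)), ?_⟩
        show y * swap d (z d) ∈ alternatingGroup α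
        rw [mem_alternatingGroup, Perm.sign_mul, h1, sign_swap hd.symm]; rfl
  obtain ⟨g, -, hg⟩ := hS.exists_conj_eq hS0
  rw [← hg, normalizer_cj]
  have h1 : cj g (normalizer (((P : Subgroup (Perm α)) ⊓ alternatingGroup α : Subgroup (Perm α)) :
      Set (Perm α))) ⊓ alternatingGroup α =
      cj g (normalizer (((P : Subgroup (Perm α)) ⊓ alternatingGroup α : Subgroup (Perm α)) :
      Set (Perm α)) ⊓ alternatingGroup α) := by
    rw [cj_inf, cj_normal (alternatingGroup α)]
  rw [h1]
  apply cj_mono
  exact le_inf (inf_le_left.trans hmain) inf_le_right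

end Alt

end Cfsg.Agent.Lib.Helper74SymSylow
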