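import Mathlib
import Cfsg.Agent.Lib.Helper60Core
import Cfsg.Agent.Lib.Helper40P8s4
import Cfsg.Agent.S0228

/-!
# Frobenius complements: groups with a normal self-centralizing four-group
-/

set_option autoImplicit false

namespace Cfsg.Agent.Lib.Helper75FcB

open Subgroup Cfsg

variable {X : Type*} [Group X]

theorem comm_of_sq (V : Subgroup X) (hV2 : ∀ v ∈ V, v ^ 2 = 1) {u v : X} (hu : u ∈ V)
    (hv : v ∈ V) : u * v = v * u := by
  have h1 := hV2 u hu
  have h2 := hV2 v hv
  have h3 := hV2 (u * v) (mul_mem hu hv)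
  rw [pow_two] at h1 h2 h3
  calc u * v = (v * v) * (u * v) * (u * u) := by rw [h1, h2]; group
    _ = v * (v * u) * (v * u) * u := by group
    _ = v * (u * (u * v * (u * v)) * u⁻¹)⁻¹ * u := by
        rw [h3]
        have h4 : v * u * (v * u) = 1 := by
          calc v * u * (v * u) = u⁻¹ * (u * v * (u * v)) * u := by group
            _ = 1 := by rw [h3]; group
        rw [mul_assoc v (v * u), h4]
        group
    _ = v * u := by rw [h3]; group

theorem index_dvd_six [Finite X] (V : Subgroup X) [hVn : V.Normal]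
    (hV : Nat.card V = 4) (hV2 : ∀ v ∈ V, v ^ 2 = 1) (hC : centralizer (V : Set X) ≤ V) :
    V.index ∣ 6 := by
  classical
  have hΩ : Nat.card {v : V // v ≠ 1} = 3 := by
    have := Fintype.ofFinite V
    rw [Nat.card_eq_fintype_card, Fintype.card_subtype_compl, ← Nat.card_eq_fintype_card, hV]
    simp
  let c : X →* MulAut V := MulAut.conjNormal
  let ρ : X →* Equiv.Perm {v : V // v ≠ 1} :=
    { toFun := fun g => (c g).toEquiv.subtypeEquiv
        (fun v => (map_ne_one_iff (c g) (c g).injective).symm)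
      map_one' := by
        ext ⟨v, hv⟩
        simp
      map_mul' := by
        intro g h
        ext ⟨v, hv⟩
        simp }
  have hρ : ∀ (g : X) (v : {v : V // v ≠ 1}), ((ρ g v : V) : X) = g * v * g⁻¹ := by
    intro g v
    rfl
  have hker : ρ.ker = V := by
    apply le_antisymm
    · intro g hg
      apply hC
      rw [mem_centralizer_iff]
      intro v hv
      by_cases hv1 : v = 1
      · rw [hv1]; simp
      · have h1 := hρ g ⟨⟨v, hv⟩, fun h => hv1 (congrArg Subtype.val h)⟩
        rw [MonoidHom.mem_ker.1 hg] at h1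
        simp only [Equiv.Perm.coe_one, id_eq] at h1
        calc v * g = (g * v * g⁻¹) * g := by rw [← h1]
          _ = g * v := by group
    · intro g hg
      rw [MonoidHom.mem_ker]
      ext v
      rw [hρ, Equiv.Perm.coe_one, id_eq, comm_of_sq V hV2 hg v.1.2]
      group
  rw [← hker, Subgroup.index_ker]
  have := Subgroup.card_subgroup_dvd_card ρ.range
  rwa [Nat.card_perm, hΩ] at this

/-- an element of order three fixing a non-trivial element of a four-group centralizes it -/
theorem centralizes_of_fix [Finite X] (V : Subgroup X) [hVn : V.Normal]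
    (hV : Nat.card V = 4) (hV2 : ∀ v ∈ V, v ^ 2 = 1) {x v : X} (hx3 : x ^ 3 = 1) (hvV : v ∈ V)
    (hv1 : v ≠ 1) (hvc : x * v * x⁻¹ = v) : x ∈ centralizer (V : Set X) := by
  have hvv : v * v = 1 := by rw [← pow_two]; exact hV2 v hvV
  obtain ⟨a, haV, ha1, hav⟩ : ∃ a ∈ V, a ≠ 1 ∧ a ≠ v := by
    by_contra hcon
    push Not at hcon
    have hsub : (V : Set X) ⊆ {1, v} := by
      intro w hw
      by_cases hw1 : w = 1
      · exact Or.inl hw1
      · exact Or.inr (hcon w hw hw1)
    have h1 := Set.ncard_le_ncard hsub (Set.toFinite _)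
    have h2 : ({1, v} : Set X).ncard ≤ 2 := by
      have := Set.ncard_insert_le (1 : X) {v}
      rw [Set.ncard_singleton] at this
      exact this
    have h3 : (V : Set X).ncard = 4 := by
      rw [← Nat.card_coe_set_eq]
      exact hV
    omega
  have hcases := Cfsg.Agent.Lib.Helper40P8s4.four_cases V hV hV2 hvV haV hv1 ha1 hav
  have hxa : x * a * x⁻¹ = a := by
    rcases hcases _ (hVn.conj_mem a haV x) with hb | hb | hb | hb
    · exfalso
      apply ha1
      have : a = x⁻¹ * (x * a * x⁻¹) * x := by group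
      rw [this, hb]; group
    · exfalso
      apply hav
      have h1 : a = x⁻¹ * (x * a * x⁻¹) * x := by group
      have h2 : x⁻¹ * v * x = v := by
        calc x⁻¹ * v * x = x⁻¹ * (x * v * x⁻¹) * x := by rw [hvc]
          _ = v := by group
      rw [h1, hb, h2]
    · exact hb
    · exfalso
      apply hv1
      have h1 : x * (v * a) * x⁻¹ = a := by
        calc x * (v * a) * x⁻¹ = (x * v * x⁻¹) * (x * a * x⁻¹) := by group
          _ = v * (v * a) := by rw [hvc, hb]
          _ = a := by rw [← mul_assoc, hvv, one_mul]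
      have h2 : x ^ 3 * a * (x ^ 3)⁻¹ = v * a := by
        calc x ^ 3 * a * (x ^ 3)⁻¹ = x * (x * (x * a * x⁻¹) * x⁻¹) * x⁻¹ := by
              simp only [pow_succ, pow_zero, one_mul, mul_inv_rev, mul_assoc]
          _ = v * a := by rw [hb, h1, hb]
      rw [hx3] at h2
      simpa using h2.symm
  rw [mem_centralizer_iff]
  intro w hw
  have key : x * w * x⁻¹ = w := by
    rcases hcases w hw with rfl | rfl | rfl | rfl
    · simp
    · exact hvc
    · exact hxa
    · calc x * (v * a) * x⁻¹ = (x * v * x⁻¹) * (x * a * x⁻¹) := by group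
        _ = v * a := by rw [hvc, hxa]
  calc w * x = (x * w * x⁻¹) * x := by rw [key]
    _ = x * w := by group

theorem a4_of_card [Finite X] (h : Nat.card X = 12) (V : Subgroup X)
    [hVn : V.Normal] (hV : Nat.card V = 4) (hV2 : ∀ v ∈ V, v ^ 2 = 1)
    (hC : centralizer (V : Set X) ≤ V) : Nonempty (X ≃* alternatingGroup (Fin 4)) := by
  apply Cfsg.Agent.S0228.result h
  intro z hz hzc
  have hzV : z ∈ V := by
    apply hC
    rw [mem_centralizer_iff]
    intro v _
    exact (mem_center_iff.1 hzc v)
  have hz1 : z ≠ 1 := by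
    rintro rfl
    simp at hz
  have : Fact (Nat.Prime 3) := ⟨by norm_num⟩
  obtain ⟨x, hx⟩ := exists_prime_orderOf_dvd_card' (G := X) 3 (by rw [h]; norm_num)
  have hx3 : x ^ 3 = 1 := by rw [← hx, pow_orderOf_eq_one]
  have hxC := centralizes_of_fix V hV hV2 hx3 hzV hz1 (by
    rw [mem_center_iff.1 hzc x]; group)
  have hx2 : x ^ 2 = 1 := hV2 x (hC hxC)
  have hx1 : x = 1 := by
    calc x = x ^ 3 * (x ^ 2)⁻¹ := by group
      _ = 1 := by rw [hx3, hx2]; simp
  rw [hx1, orderOf_one] at hx
  omega

end Cfsg.Agent.Lib.Helper75FcB
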