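import Cfsg.Agent.Lib.Helper75HallD
set_option autoImplicit false

namespace Cfsg.Agent.Lib.Helper75Hall17

open MulAction Subgroup
open scoped Pointwise
open Cfsg.Agent.Lib.Helper75Hall (conj_pow_pow exists_conj_exponent commute_of_normalizes
  false_of_sylow_prime card_sylow_eq_prime comm_of_conj_eq)

universe u v


instance fact_prime_seventeen : Fact (Nat.Prime 17) := ⟨by norm_num⟩

structure Config (Y : Type u) [Group Y] (Ω : Type v) [Fintype Ω] [MulAction Y Ω] (ω0 : Ω)
    (P : Sylow 17 Y) : Prop where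
  card : Fintype.card Ω = 35
  faithful : ∀ g : Y, (∀ ω : Ω, g • ω = ω) → g = 1
  trans : IsPretransitive Y Ω
  fix0 : ∀ g ∈ P, g • ω0 = ω0
  fix1 : ∀ ω : Ω, (∀ g ∈ P, g • ω = ω) → ω = ω0
  norm : ∀ g : Y, g • ω0 = ω0 → g ∈ normalizer (P : Set Y)

theorem card_orbit_eq_seventeen {K : Type*} [Group K] (hK : IsPGroup 17 K) {Ω : Type*} [Fintype Ω]
    [MulAction K Ω] (hcard : Fintype.card Ω = 35) (z : Ω) (hz : ∃ g : K, g • z ≠ z) :
    Nat.card (orbit K z) = 17 := by
  obtain ⟨n, hn⟩ := hK.card_orbit z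
  have hle : Nat.card (orbit K z) ≤ 35 := by
    rw [← hcard, ← Nat.card_eq_fintype_card]
    exact Finite.card_subtype_le _
  have hn0 : n ≠ 0 := by
    rintro rfl
    rw [pow_zero] at hn
    obtain ⟨g, hg⟩ := hz
    have hs : Subsingleton (orbit K z) := (Nat.card_eq_one_iff_unique.1 hn).1
    have := hs.elim ⟨g • z, mem_orbit z g⟩ ⟨z, mem_orbit_self z⟩
    exact hg (congrArg Subtype.val this)
  have hn2 : n < 2 := by
    by_contra hge
    push Not at hge
    have : 17 ^ 2 ≤ 17 ^ n := Nat.pow_le_pow_right (by norm_num) hge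
    omega
  have : n = 1 := by omega
  rw [hn, this, pow_one]

section
variable {Y : Type u} [Group Y] {Ω : Type v} [Fintype Ω] [MulAction Y Ω] {ω0 : Ω} {P : Sylow 17 Y}

theorem Config.orbit_card (h : Config Y Ω ω0 P) {z : Ω} (hz : z ≠ ω0) :
    Nat.card (orbit (P : Subgroup Y) z) = 17 := by
  apply card_orbit_eq_seventeen P.2 h.card
  by_contra hcon
  push Not at hcon
  exact hz (h.fix1 z (fun g hg => hcon ⟨g, hg⟩))

theorem Config.notMem_orbit (h : Config Y Ω ω0 P) {z : Ω} (hz : z ≠ ω0) :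
    ω0 ∉ orbit (P : Subgroup Y) z := by
  rintro ⟨g, hg⟩
  apply hz
  have h1 : (g : Y) • z = ω0 := hg
  have h2 : (g : Y)⁻¹ • ω0 = ω0 := h.fix0 _ (inv_mem g.2)
  rw [← h1, inv_smul_smul] at h2
  rw [h2, h1]

theorem Config.cover (h : Config Y Ω ω0 P) {z w : Ω} (hz : z ≠ ω0) (hw : w ≠ ω0)
    (hwz : w ∉ orbit (P : Subgroup Y) z) (t : Ω) :
    t = ω0 ∨ t ∈ orbit (P : Subgroup Y) z ∨ t ∈ orbit (P : Subgroup Y) w := by
  classical
  by_contra hcon
  push Not at hcon
  obtain ⟨h1, h2, h3⟩ := hcon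
  have hdisj : Disjoint (orbit (P : Subgroup Y) z) (orbit (P : Subgroup Y) w) := by
    rcases orbit.eq_or_disjoint z w (G := (P : Subgroup Y)) with he | hd
    · exfalso; apply hwz; rw [he]; exact mem_orbit_self w
    · exact hd
  have c1 : (orbit (P : Subgroup Y) z ∪ orbit (P : Subgroup Y) w).ncard = 34 := by
    rw [Set.ncard_union_eq hdisj, ← Nat.card_coe_set_eq, ← Nat.card_coe_set_eq, h.orbit_card hz,
      h.orbit_card hw]
  have c2 : (insert ω0 (orbit (P : Subgroup Y) z ∪ orbit (P : Subgroup Y) w)).ncard = 35 := by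
    rw [Set.ncard_insert_of_notMem, c1]
    rintro (hh | hh)
    · exact h.notMem_orbit hz hh
    · exact h.notMem_orbit hw hh
  have c3 : (insert t (insert ω0 (orbit (P : Subgroup Y) z ∪ orbit (P : Subgroup Y) w))).ncard = 36 := by
    rw [Set.ncard_insert_of_notMem, c2]
    rintro (hh | hh | hh)
    · exact h1 hh
    · exact h2 hh
    · exact h3 hh
  have c4 := Set.ncard_le_ncard (Set.subset_univ
    (insert t (insert ω0 (orbit (P : Subgroup Y) z ∪ orbit (P : Subgroup Y) w))))
  rw [c3, Set.ncard_univ, Nat.card_eq_fintype_card, h.card] at c4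
  omega

theorem Config.isPreprimitive (h : Config Y Ω ω0 P) : IsPreprimitive Y Ω := by
  classical
  have := h.trans
  apply IsPreprimitive.of_isTrivialBlock_base ω0
  intro B hB0 hB
  -- P acts on B
  let S : SubMulAction (P : Subgroup Y) Ω :=
    { carrier := B
      smul_mem' := by
        intro g b hb
        have h1 : (g : Y) • B = B := hB.smul_eq_of_mem hB0 (by rw [h.fix0 _ g.2]; exact hB0)
        rw [← h1]
        exact Set.smul_mem_smul_set hb }
  have hmod := P.2.card_modEq_card_fixedPoints S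
  have hfix : Nat.card (fixedPoints (P : Subgroup Y) S) = 1 := by
    rw [Nat.card_eq_one_iff_unique]
    refine ⟨⟨?_⟩, ⟨⟨⟨ω0, hB0⟩, ?_⟩⟩⟩
    · rintro ⟨⟨a, ha⟩, ha'⟩ ⟨⟨b, hb⟩, hb'⟩
      have e1 : a = ω0 := h.fix1 a (fun g hg => congrArg Subtype.val (ha' ⟨g, hg⟩))
      have e2 : b = ω0 := h.fix1 b (fun g hg => congrArg Subtype.val (hb' ⟨g, hg⟩))
      subst e1; subst e2; rfl
    · intro g
      exact Subtype.ext (h.fix0 _ g.2)
  rw [hfix] at hmod
  have hcardS : Nat.card S = B.ncard := Nat.card_coe_set_eq B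
  rw [hcardS] at hmod
  have hdvd : B.ncard ∣ 35 := by
    have := hB.ncard_dvd_card ⟨ω0, hB0⟩
    rwa [Nat.card_eq_fintype_card, h.card] at this
  have hle : B.ncard ≤ 35 := Nat.le_of_dvd (by norm_num) hdvd
  have hcases : B.ncard = 1 ∨ B.ncard = 35 := by
    unfold Nat.ModEq at hmod
    interval_cases hb : B.ncard <;> simp_all
  rcases hcases with h1 | h15
  · left
    rw [Set.ncard_eq_one] at h1
    obtain ⟨a, ha⟩ := h1
    rw [ha]; exact Set.subsingleton_singleton
  · right
    rw [Set.eq_univ_iff_ncard, h15, Nat.card_eq_fintype_card, h.card]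

theorem Config.exists_ne (h : Config Y Ω ω0 P) : ∃ z : Ω, z ≠ ω0 := by
  have : 1 < Fintype.card Ω := by rw [h.card]; norm_num
  have : Nontrivial Ω := Fintype.one_lt_card_iff_nontrivial.1 this
  exact _root_.exists_ne ω0

theorem Config.not_three (h : Config Y Ω ω0 P) : ¬ IsMultiplyPretransitive Y Ω 3 := by
  classical
  intro h3
  obtain ⟨z, hz⟩ := h.exists_ne
  have hmove : ∃ p ∈ P, p • z ≠ z := by
    by_contra hcon
    push Not at hcon
    exact hz (h.fix1 z hcon)
  obtain ⟨p, hp, hpz⟩ := hmove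
  have hz'orb : p • z ∈ orbit (P : Subgroup Y) z := ⟨⟨p, hp⟩, rfl⟩
  -- a point outside
  have hw : ∃ w : Ω, w ≠ ω0 ∧ w ∉ orbit (P : Subgroup Y) z := by
    by_contra hcon
    push Not at hcon
    have hsub : (Set.univ : Set Ω) ⊆ insert ω0 (orbit (P : Subgroup Y) z) := by
      intro w _
      by_cases hw : w = ω0
      · left; exact hw
      · right; exact hcon w hw
    have c1 := Set.ncard_le_ncard hsub
    have c2 : (insert ω0 (orbit (P : Subgroup Y) z)).ncard = 18 := by
      rw [Set.ncard_insert_of_notMem (h.notMem_orbit hz), ← Nat.card_coe_set_eq, h.orbit_card hz]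
    rw [c2, Set.ncard_univ, Nat.card_eq_fintype_card, h.card] at c1
    omega
  obtain ⟨w, hw0, hw⟩ := hw
  have hz'0 : p • z ≠ ω0 := fun e => h.notMem_orbit hz (e ▸ hz'orb)
  have hwz : w ≠ z := fun e => hw (by rw [e]; exact mem_orbit_self z)
  let a : Fin 3 ↪ Ω := ⟨![ω0, z, p • z], by
    intro i j hij
    fin_cases i <;> fin_cases j <;> simp_all [Ne.symm hz, Ne.symm hz'0, Ne.symm hpz]⟩
  let b : Fin 3 ↪ Ω := ⟨![ω0, z, w], by
    intro i j hij
    fin_cases i <;> fin_cases j <;> simp_all [Ne.symm hz, Ne.symm hw0, Ne.symm hwz]⟩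
  obtain ⟨g, hg⟩ := h3.exists_smul_eq a b
  have g0 : g • ω0 = ω0 := by
    have e : (g • a) 0 = b 0 := by rw [hg]
    exact e
  have g1 : g • z = z := by
    have e : (g • a) 1 = b 1 := by rw [hg]
    exact e
  have g2 : g • (p • z) = w := by
    have e : (g • a) 2 = b 2 := by rw [hg]
    exact e
  have hn := h.norm g g0
  have hgp : g * p * g⁻¹ ∈ (P : Subgroup Y) := (mem_normalizer_iff.1 hn p).1 hp
  apply hw
  refine ⟨⟨_, hgp⟩, ?_⟩
  change (g * p * g⁻¹) • z = w
  rw [mul_smul, mul_smul]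
  have : g⁻¹ • z = z := by rw [inv_smul_eq_iff, g1]
  rw [this, g2]

theorem Config.eq_one_of_fix_two [Finite Y] (h : Config Y Ω ω0 P) (y : Y) (k : ℕ) (hy : y ^ 17 ^ k = 1)
    {z1 z2 : Ω} (hne : z1 ≠ z2) (h1 : y • z1 = z1) (h2 : y • z2 = z2) : y = 1 := by
  classical
  by_contra hy1
  have hK : IsPGroup 17 (zpowers y) := by
    obtain ⟨j, -, hj⟩ := (Nat.dvd_prime_pow (by norm_num : Nat.Prime 17)).1 (orderOf_dvd_of_pow_eq_one hy)
    exact IsPGroup.of_card (n := j) (by rw [Nat.card_zpowers, hj])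
  have hfixmem : ∀ t : Ω, t ∈ fixedPoints (zpowers y) Ω ↔ y • t = t := by
    intro t
    constructor
    · intro ht; exact ht ⟨y, mem_zpowers y⟩
    · intro ht g
      have : zpowers y ≤ stabilizer Y t := by rw [zpowers_le]; exact ht
      exact this g.2
  set F : Set Ω := fixedPoints (zpowers y) Ω with hF
  have hmod := hK.card_modEq_card_fixedPoints Ω
  rw [Nat.card_eq_fintype_card, h.card, Nat.card_coe_set_eq] at hmod
  have hge : 2 ≤ F.ncard := by
    have : ({z1, z2} : Set Ω) ⊆ F := by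
      rintro t (rfl | rfl)
      · exact (hfixmem _).2 h1
      · exact (hfixmem _).2 h2
    have c := Set.ncard_le_ncard this
    rwa [Set.ncard_pair hne] at c
  obtain ⟨w, hw⟩ : ∃ w : Ω, y • w ≠ w := by
    by_contra hcon
    push Not at hcon
    exact hy1 (h.faithful y hcon)
  have hle : F.ncard ≤ 34 := by
    have hsub : F ⊆ {w}ᶜ := by
      intro t ht htw
      rw [Set.mem_singleton_iff] at htw
      exact hw ((hfixmem w).1 (htw ▸ ht))
    have c := Set.ncard_le_ncard hsub
    have c2 : ({w}ᶜ : Set Ω).ncard = 34 := by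
      have := Set.ncard_add_ncard_compl ({w} : Set Ω)
      rw [Set.ncard_singleton, Nat.card_eq_fintype_card, h.card] at this
      omega
    omega
  have h8 : F.ncard = 18 := by
    unfold Nat.ModEq at hmod
    interval_cases hb : F.ncard <;> simp_all
  have hc7 : (Fᶜ : Set Ω).ncard = 17 := by
    have := Set.ncard_add_ncard_compl F
    rw [h8, Nat.card_eq_fintype_card, h.card] at this
    omega
  have hzfix : ∀ g ∈ zpowers y, g ∈ fixingSubgroup Y F := by
    intro g hg
    rw [mem_fixingSubgroup_iff]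
    intro t ht
    exact ht ⟨g, hg⟩
  have htrans : IsPretransitive (fixingSubgroup Y F) (SubMulAction.ofFixingSubgroup Y F) := by
    refine ⟨?_⟩
    rintro ⟨a, ha⟩ ⟨b, hb⟩
    have ha' : a ∉ F := ha
    have hb' : b ∉ F := hb
    have horb : Nat.card (orbit (zpowers y) a) = 17 := by
      apply card_orbit_eq_seventeen hK h.card
      refine ⟨⟨y, mem_zpowers y⟩, ?_⟩
      intro e
      exact ha' ((hfixmem a).2 e)
    have hsub : orbit (zpowers y) a ⊆ Fᶜ := by
      rintro _ ⟨g, rfl⟩ hg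
      apply ha'
      rw [hfixmem] at hg ⊢
      have e1 : y • ((g : Y) • a) = (g : Y) • a := hg
      have hcomm : y * (g : Y) = (g : Y) * y := by
        obtain ⟨i, hi⟩ := mem_zpowers_iff.1 g.2
        rw [← hi]
        exact ((Commute.refl y).zpow_right i).eq
      rw [← mul_smul, hcomm, mul_smul] at e1
      exact smul_left_cancel _ e1
    have heq : orbit (zpowers y) a = Fᶜ := by
      apply Set.eq_of_subset_of_ncard_le hsub
      rw [hc7, ← Nat.card_coe_set_eq, horb]
    have hbm : b ∈ orbit (zpowers y) a := by rw [heq]; exact hb'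
    obtain ⟨g, hg⟩ := hbm
    exact ⟨⟨g, hzfix g g.2⟩, Subtype.ext hg⟩
  have hprim : IsPreprimitive (fixingSubgroup Y F) (SubMulAction.ofFixingSubgroup Y F) := by
    apply IsPreprimitive.of_prime_card
    have : Nat.card (SubMulAction.ofFixingSubgroup Y F) = 17 := by
      have e : Nat.card (SubMulAction.ofFixingSubgroup Y F) = (Fᶜ : Set Ω).ncard :=
        Nat.card_coe_set_eq (Fᶜ : Set Ω)
      rw [e, hc7]
    rw [this]; norm_num
  have h9 : IsMultiplyPreprimitive Y Ω (17 + 2) :=
    h.isPreprimitive.isMultiplyPreprimitive (s := F) (n := 17) h8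
      (by rw [Nat.card_eq_fintype_card, h.card]; norm_num) hprim
  have h9' : IsMultiplyPretransitive Y Ω (17 + 2) := IsMultiplyPreprimitive.isMultiplyPretransitive Y Ω _
  exact h.not_three (isMultiplyPretransitive_of_le (n := 17 + 2) (by norm_num)
    (by rw [Nat.card_eq_fintype_card, h.card]; norm_num))


theorem Config.eq_one_of_mem_of_fix [Finite Y] (h : Config Y Ω ω0 P) {g : Y} (hg : g ∈ P) {z : Ω}
    (hz : z ≠ ω0) (hgz : g • z = z) : g = 1 := by
  obtain ⟨k, hk⟩ := P.2 ⟨g, hg⟩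
  have hk' : g ^ 17 ^ k = 1 := congrArg Subtype.val hk
  exact h.eq_one_of_fix_two g k hk' hz hgz (h.fix0 g hg)

theorem Config.card_P [Finite Y] (h : Config Y Ω ω0 P) : Nat.card (P : Subgroup Y) = 17 := by
  obtain ⟨z, hz⟩ := h.exists_ne
  have hstab : stabilizer (P : Subgroup Y) z = ⊥ := by
    rw [eq_bot_iff]
    intro g hg
    rw [mem_bot]
    exact Subtype.ext (h.eq_one_of_mem_of_fix g.2 hz hg)
  have := index_stabilizer (P : Subgroup Y) z
  rw [hstab, index_bot, ← Nat.card_coe_set_eq, h.orbit_card hz] at this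
  exact this

theorem Config.pow_seventeen [Finite Y] (h : Config Y Ω ω0 P) {g : Y} (hg : g ∈ P) : g ^ 17 = 1 := by
  have := pow_card_eq_one' (G := (P : Subgroup Y)) (x := ⟨g, hg⟩)
  rw [h.card_P] at this
  exact congrArg Subtype.val this

theorem Config.comm_P [Finite Y] (h : Config Y Ω ω0 P) {a b : Y} (ha : a ∈ P) (hb : b ∈ P) :
    a * b = b * a := by
  have hc : IsCyclic (P : Subgroup Y) := isCyclic_of_prime_card (p := 17) h.card_P
  have hm : IsMulCommutative (P : Subgroup Y) := IsCyclic.isMulCommutative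
  have := mul_comm' (M := (P : Subgroup Y)) ⟨a, ha⟩ ⟨b, hb⟩
  exact congrArg Subtype.val this

theorem Config.centralizer_fix0 (h : Config Y Ω ω0 P) {c : Y} (hc : ∀ p ∈ P, c * p = p * c) :
    c • ω0 = ω0 := by
  apply h.fix1
  intro g hg
  rw [← mul_smul, ← hc g hg, mul_smul, h.fix0 g hg]

theorem Config.mem_of_centralizer [Finite Y] (h : Config Y Ω ω0 P) {c : Y}
    (hc : ∀ p ∈ P, c * p = p * c) {z : Ω} (hz : z ≠ ω0) (hcz : c • z ∈ orbit (P : Subgroup Y) z) :
    c ∈ P := by
  obtain ⟨⟨p, hp⟩, hpz⟩ := hcz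
  have hpz' : p • z = c • z := hpz
  set c' := p⁻¹ * c with hc'
  have hc'comm : ∀ q ∈ P, c' * q = q * c' := by
    intro q hq
    rw [hc', mul_assoc, hc q hq, ← mul_assoc, ← mul_assoc, h.comm_P (inv_mem hp) hq]
  have hc'z : c' • z = z := by
    rw [hc', mul_smul, ← hpz', inv_smul_smul]
  have hc'0 : c' • ω0 = ω0 := h.centralizer_fix0 hc'comm
  have hclaim : ∀ t : Ω, ∃ q ∈ P, c' • t = q • t := by
    intro t
    by_cases ht0 : t = ω0
    · exact ⟨1, one_mem _, by rw [ht0, hc'0, one_smul]⟩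
    by_cases htz : t ∈ orbit (P : Subgroup Y) z
    · obtain ⟨⟨r, hr⟩, hrz⟩ := htz
      have hrz' : r • z = t := hrz
      refine ⟨1, one_mem _, ?_⟩
      rw [one_smul, ← hrz', ← mul_smul, hc'comm r hr, mul_smul, hc'z]
    · rcases h.cover hz ht0 htz (c' • t) with h1 | h1 | h1
      · exfalso
        apply ht0
        rw [← hc'0] at h1
        exact smul_left_cancel _ h1
      · exfalso
        obtain ⟨⟨r, hr⟩, hrz⟩ := h1
        have hrz' : r • z = c' • t := hrz
        apply htz
        refine ⟨⟨r, hr⟩, ?_⟩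
        change r • z = t
        have : c' • (r • z) = c' • t := by
          rw [← mul_smul, hc'comm r hr, mul_smul, hc'z, hrz']
        exact smul_left_cancel _ this
      · obtain ⟨⟨q, hq⟩, hqt⟩ := h1
        exact ⟨q, hq, hqt.symm⟩
  have hpow : c' ^ 17 ^ 1 = 1 := by
    rw [pow_one]
    apply h.faithful
    intro t
    obtain ⟨q, hq, hqt⟩ := hclaim t
    have hind : ∀ j : ℕ, c' ^ j • t = q ^ j • t := by
      intro j
      induction j with
      | zero => simp
      | succ j ih =>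
        rw [pow_succ', mul_smul, ih, ← mul_smul]
        have : c' * q ^ j = q ^ j * c' := hc'comm _ (pow_mem hq j)
        rw [this, mul_smul, hqt, ← mul_smul, ← pow_succ]
    rw [hind, h.pow_seventeen hq, one_smul]
  have hone : c' = 1 := h.eq_one_of_fix_two c' 1 hpow hz hc'z hc'0
  have : c = p := by
    rw [hc'] at hone
    exact (inv_mul_eq_one.1 hone).symm
  rw [this]; exact hp

theorem Config.sq_mem_of_centralizer [Finite Y] (h : Config Y Ω ω0 P) {c : Y}
    (hc : ∀ p ∈ P, c * p = p * c) : c * c ∈ P := by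
  obtain ⟨z, hz⟩ := h.exists_ne
  have hc0 := h.centralizer_fix0 hc
  by_cases hcz : c • z ∈ orbit (P : Subgroup Y) z
  · have := h.mem_of_centralizer hc hz hcz
    exact mul_mem this this
  · have hcc : ∀ p ∈ P, (c * c) * p = p * (c * c) := by
      intro p hp
      rw [mul_assoc, hc p hp, ← mul_assoc, hc p hp, mul_assoc]
    apply h.mem_of_centralizer hcc hz
    have hw0 : c • z ≠ ω0 := by
      intro e
      rw [← hc0] at e
      exact hz (smul_left_cancel _ e)
    rw [mul_smul]
    rcases h.cover hz hw0 hcz (c • c • z) with h1 | h1 | h1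
    · exfalso
      rw [← hc0] at h1
      exact hw0 (smul_left_cancel _ h1)
    · exact h1
    · exfalso
      obtain ⟨⟨q, hq⟩, hqt⟩ := h1
      have hqt' : q • c • z = c • c • z := hqt
      apply hcz
      refine ⟨⟨q, hq⟩, ?_⟩
      change q • z = c • z
      have : c • (q • z) = c • (c • z) := by
        rw [← mul_smul, hc q hq, mul_smul, hqt']
      exact smul_left_cancel _ this

end



section
variable {Y : Type u} [Group Y] {Ω : Type v} [Fintype Ω] [MulAction Y Ω] {ω0 : Ω} {P : Sylow 17 Y}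

theorem Config.orderOf_eq [Finite Y] (h : Config Y Ω ω0 P) {x : Y} (hx : x ∈ P) (hx1 : x ≠ 1) :
    orderOf x = 17 := by
  have := orderOf_dvd_of_pow_eq_one (h.pow_seventeen hx)
  rcases (Nat.dvd_prime (by norm_num : Nat.Prime 17)).1 this with h1 | h1
  · exact absurd (orderOf_eq_one_iff.1 h1) hx1
  · exact h1

theorem Config.eq_zpowers [Finite Y] (h : Config Y Ω ω0 P) {x : Y} (hx : x ∈ P) (hx1 : x ≠ 1) :
    zpowers x = (P : Subgroup Y) := by
  apply Subgroup.eq_of_le_of_card_ge
  · rw [zpowers_le]; exact hx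
  · rw [h.card_P, Nat.card_zpowers, h.orderOf_eq hx hx1]

theorem Config.comm_of_comm [Finite Y] (h : Config Y Ω ω0 P) {x c : Y} (hx : x ∈ P) (hx1 : x ≠ 1)
    (hc : c * x = x * c) : ∀ p ∈ P, c * p = p * c := by
  intro p hp
  have : p ∈ zpowers x := by rw [h.eq_zpowers hx hx1]; exact hp
  obtain ⟨i, rfl⟩ := mem_zpowers_iff.1 this
  exact ((show Commute c x from hc).zpow_right i).eq

theorem Config.exists_gen [Finite Y] (h : Config Y Ω ω0 P) : ∃ x ∈ P, x ≠ 1 := by
  by_contra hcon
  push Not at hcon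
  have : (P : Subgroup Y) = ⊥ := (eq_bot_iff_forall _).2 hcon
  have h7 := h.card_P
  rw [this, card_bot] at h7
  omega

theorem Config.eq_one_of_centralizer_pow_five [Finite Y] (h : Config Y Ω ω0 P) {y : Y}
    (hc : ∀ p ∈ P, y * p = p * y) (hy : y ^ 5 = 1) : y = 1 := by
  have hsq := h.sq_mem_of_centralizer hc
  have h7 := h.pow_seventeen hsq
  have h14 : y ^ 34 = 1 := by rw [← h7, ← pow_two, ← pow_mul]
  have h15 : y ^ 35 = 1 := by rw [show 35 = 5 * 7 from rfl, pow_mul, hy, one_pow]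
  have : y ^ 35 = y ^ 34 * y := pow_succ y 34
  rw [h15, h14, one_mul] at this
  exact this.symm

theorem Config.eq_one_of_pow_five [Finite Y] (h : Config Y Ω ω0 P) {y : Y} (hy0 : y • ω0 = ω0)
    (hy : y ^ 5 = 1) : y = 1 := by
  obtain ⟨x, hx, hx1⟩ := h.exists_gen
  have hn := h.norm y hy0
  have hconj : y * x * y⁻¹ ∈ zpowers x := by
    rw [h.eq_zpowers hx hx1]; exact (mem_normalizer_iff.1 hn x).1 hx
  have hcomm := commute_of_normalizes (h.orderOf_eq hx hx1) hy hconj (by decide)
  exact h.eq_one_of_centralizer_pow_five (h.comm_of_comm hx hx1 hcomm) hy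

theorem Config.card_eq [Finite Y] (h : Config Y Ω ω0 P) :
    Nat.card Y = 35 * Nat.card (stabilizer Y ω0) := by
  have := h.trans
  have h1 := index_stabilizer_of_transitive Y ω0
  have h2 := (stabilizer Y ω0).index_mul_card
  rw [h1, Nat.card_eq_fintype_card, h.card] at h2
  exact h2.symm

theorem Config.not_five_dvd [Finite Y] (h : Config Y Ω ω0 P) :
    ¬ 5 ∣ Nat.card (stabilizer Y ω0) := by
  intro hd
  obtain ⟨y, hy⟩ := exists_prime_orderOf_dvd_card' 5 hd
  have h5 : (y : Y) ^ 5 = 1 := by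
    have := pow_orderOf_eq_one y
    rw [hy] at this
    exact congrArg Subtype.val this
  have h1 : (y : Y) = 1 := h.eq_one_of_pow_five y.2 h5
  have h2 : y = 1 := Subtype.ext h1
  rw [h2, orderOf_one] at hy
  omega

theorem Config.not_25_dvd [Finite Y] (h : Config Y Ω ω0 P) : ¬ 25 ∣ Nat.card Y := by
  have h1 := h.card_eq
  have h2 := h.not_five_dvd
  omega

theorem Config.transitive_of_normal (h : Config Y Ω ω0 P) {M : Subgroup Y} [M.Normal]
    (hM : M ≠ ⊥) : IsPretransitive M Ω := by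
  have := h.isPreprimitive
  apply IsQuasiPreprimitive.isPretransitive_of_normal (G := Y)
  intro hfix
  apply hM
  rw [eq_bot_iff]
  intro n hn
  rw [mem_bot]
  apply h.faithful
  intro y
  have : y ∈ fixedPoints M Ω := by rw [hfix]; trivial
  exact this ⟨n, hn⟩

theorem Config.dvd_card_of_normal [Finite Y] (h : Config Y Ω ω0 P) {M : Subgroup Y} [M.Normal]
    (hM : M ≠ ⊥) : 35 ∣ Nat.card M := by
  have := h.transitive_of_normal hM
  have h1 := index_stabilizer_of_transitive M ω0
  have h2 := (stabilizer M ω0).index_mul_card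
  rw [h1, Nat.card_eq_fintype_card, h.card] at h2
  exact ⟨_, h2.symm⟩

end



theorem exists_conj_mem_sylow {Y : Type*} [Group Y] [Finite Y] (P : Sylow 17 Y) {u : Y}
    (hu : u ^ 17 = 1) : ∃ g : Y, g * u * g⁻¹ ∈ P := by
  have hp : IsPGroup 17 (zpowers u) := by
    have hu' : u ^ 17 ^ 1 = 1 := by rw [pow_one]; exact hu
    obtain ⟨j, -, hj⟩ := (Nat.dvd_prime_pow (by norm_num : Nat.Prime 17)).1
      (orderOf_dvd_of_pow_eq_one hu')
    exact IsPGroup.of_card (n := j) (by rw [Nat.card_zpowers, hj])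
  obtain ⟨Q, hQ⟩ := hp.exists_le_sylow
  obtain ⟨g, hg⟩ := exists_smul_eq Y Q P
  refine ⟨g, ?_⟩
  rw [← hg]
  have hu : u ∈ (Q : Subgroup Y) := hQ (mem_zpowers u)
  have := Subgroup.smul_mem_pointwise_smul u (MulAut.conj g) (Q : Subgroup Y) hu
  rw [MulAut.smul_def, MulAut.conj_apply] at this
  exact this

section
variable {Y : Type u} [Group Y] {Ω : Type v} [Fintype Ω] [MulAction Y Ω] {ω0 : Ω} {P : Sylow 17 Y}

theorem Config.seventeen_dvd_of_normal [Finite Y] (h : Config Y Ω ω0 P) {M : Subgroup Y} [M.Normal]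
    (hM : M ≠ ⊥) : 17 ∣ Nat.card M := by
  by_contra h7
  have h15 := h.dvd_card_of_normal hM
  have h5 : 5 ∣ Nat.card M := Dvd.dvd.trans (by norm_num) h15
  obtain ⟨Q5⟩ : Nonempty (Sylow 5 M) := inferInstance
  have hQcard : Nat.card Q5 = 5 := by
    obtain ⟨n, hn⟩ := Q5.2.exists_card_eq
    have hd1 : 5 ∣ Nat.card Q5 := Q5.dvd_card_of_dvd_card h5
    have hd2 : Nat.card Q5 ∣ Nat.card Y :=
      (card_subgroup_dvd_card _).trans (card_subgroup_dvd_card M)
    have hn0 : n ≠ 0 := by
      rintro rfl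
      rw [hn] at hd1
      norm_num at hd1
    have hn2 : n < 2 := by
      by_contra hge
      push Not at hge
      apply h.not_25_dvd
      refine Dvd.dvd.trans ?_ hd2
      rw [hn]
      exact pow_dvd_pow 5 hge
    have : n = 1 := by omega
    rw [hn, this, pow_one]
  set Q : Subgroup Y := (Q5 : Subgroup M).map M.subtype with hQ
  have hQc : Nat.card Q = 5 := by
    rw [hQ, card_map_of_injective M.subtype_injective]; exact hQcard
  have hfr := Sylow.normalizer_sup_eq_top Q5
  have hidx : M.index ∣ Nat.card (normalizer (Q : Set Y)) := by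
    have := relIndex_sup_right (normalizer (Q : Set Y)) M
    rw [hfr, relIndex_top_right] at this
    rw [this]; exact relIndex_dvd_card _ _
  have h7Y : 17 ∣ Nat.card Y := by rw [← h.card_P]; exact card_subgroup_dvd_card _
  have h7i : 17 ∣ M.index := by
    rw [← M.index_mul_card] at h7Y
    exact ((Nat.Prime.dvd_mul (by norm_num)).1 h7Y).resolve_right h7
  obtain ⟨u, hu⟩ := exists_prime_orderOf_dvd_card' 17 (h7i.trans hidx)
  have hu7 : (u : Y) ^ 17 = 1 := by
    have := pow_orderOf_eq_one u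
    rw [hu] at this
    exact congrArg Subtype.val this
  have hu1 : (u : Y) ≠ 1 := by
    intro e
    have : u = 1 := Subtype.ext e
    rw [this, orderOf_one] at hu
    omega
  -- generator of Q
  obtain ⟨v, hvQ, hv1⟩ : ∃ v ∈ Q, v ≠ 1 := by
    by_contra hcon
    push Not at hcon
    have : Q = ⊥ := (eq_bot_iff_forall _).2 hcon
    rw [this, card_bot] at hQc
    omega
  have hv5 : v ^ 5 = 1 := by
    have := pow_card_eq_one' (G := Q) (x := ⟨v, hvQ⟩)
    rw [hQc] at this
    exact congrArg Subtype.val this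
  have hvo : orderOf v = 5 := by
    rcases (Nat.dvd_prime (by norm_num : Nat.Prime 5)).1 (orderOf_dvd_of_pow_eq_one hv5) with h1 | h1
    · exact absurd (orderOf_eq_one_iff.1 h1) hv1
    · exact h1
  have hzv : zpowers v = Q := by
    apply Subgroup.eq_of_le_of_card_ge
    · rw [zpowers_le]; exact hvQ
    · rw [hQc, Nat.card_zpowers, hvo]
  have hconj : (u : Y) * v * (u : Y)⁻¹ ∈ zpowers v := by
    rw [hzv]; exact (mem_normalizer_iff.1 u.2 v).1 hvQ
  have hcomm := commute_of_normalizes hvo hu7 hconj (by decide)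
  obtain ⟨g, hg⟩ := exists_conj_mem_sylow P hu7
  have hx1 : g * (u : Y) * g⁻¹ ≠ 1 := by
    intro e
    apply hu1
    have : (u : Y) = g⁻¹ * (g * (u : Y) * g⁻¹) * g := by group
    rw [this, e]; group
  have hc : (g * v * g⁻¹) * (g * (u : Y) * g⁻¹) = (g * (u : Y) * g⁻¹) * (g * v * g⁻¹) := by
    have e1 : (g * v * g⁻¹) * (g * (u : Y) * g⁻¹) = g * (v * (u : Y)) * g⁻¹ := by group
    have e2 : (g * (u : Y) * g⁻¹) * (g * v * g⁻¹) = g * ((u : Y) * v) * g⁻¹ := by group
    rw [e1, e2, hcomm]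
  have h5' : (g * v * g⁻¹) ^ 5 = 1 := by
    rw [conj_pow, hv5]; group
  have := h.eq_one_of_centralizer_pow_five (h.comm_of_comm hg hx1 hc) h5'
  apply hv1
  have e : v = g⁻¹ * (g * v * g⁻¹) * g := by group
  rw [e, this]; group

theorem Config.le_of_normal [Finite Y] (h : Config Y Ω ω0 P) {M : Subgroup Y} [hMn : M.Normal]
    (hM : M ≠ ⊥) : (P : Subgroup Y) ≤ M := by
  obtain ⟨u, hu⟩ := exists_prime_orderOf_dvd_card' 17 (h.seventeen_dvd_of_normal hM)
  have hu7 : (u : Y) ^ 17 = 1 := by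
    have := pow_orderOf_eq_one u
    rw [hu] at this
    exact congrArg Subtype.val this
  have hu1 : (u : Y) ≠ 1 := by
    intro e
    have : u = 1 := Subtype.ext e
    rw [this, orderOf_one] at hu
    omega
  obtain ⟨g, hg⟩ := exists_conj_mem_sylow P hu7
  have hx1 : g * (u : Y) * g⁻¹ ≠ 1 := by
    intro e
    apply hu1
    have : (u : Y) = g⁻¹ * (g * (u : Y) * g⁻¹) * g := by group
    rw [this, e]; group
  rw [← h.eq_zpowers hg hx1, zpowers_le]
  exact hMn.conj_mem _ u.2 g

theorem Config.restrict [Finite Y] (h : Config Y Ω ω0 P) {M : Subgroup Y} [hMn : M.Normal]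
    (hM : M ≠ ⊥) : Config M Ω ω0 (P.subtype (h.le_of_normal hM)) where
  card := h.card
  faithful := by
    intro g hg
    exact Subtype.ext (h.faithful g hg)
  trans := h.transitive_of_normal hM
  fix0 := by
    intro g hg
    exact h.fix0 g hg
  fix1 := by
    intro ω hω
    apply h.fix1
    intro g hg
    exact hω ⟨g, h.le_of_normal hM hg⟩ hg
  norm := by
    intro g hg
    have h1 := mem_normalizer_iff.1 (h.norm g hg)
    refine mem_normalizer_iff.2 ?_
    intro x
    exact h1 x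

end

end Cfsg.Agent.Lib.Helper75Hall17
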