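import Cfsg.Agent.Lib.Helper75Hall17
set_option autoImplicit false

namespace Cfsg.Agent.Lib.Helper75Hall17

open MulAction Subgroup
open scoped Pointwise
open Cfsg.Agent.Lib.Helper75Hall (conj_pow_pow exists_conj_exponent commute_of_normalizes
  false_of_sylow_prime card_sylow_eq_prime comm_of_conj_eq)

universe u v

section
variable {Y : Type u} [Group Y] {Ω : Type v} [Fintype Ω] [MulAction Y Ω] {ω0 : Ω} {P : Sylow 17 Y}

theorem Config.false_of_involution [Finite Y] [DecidableEq Ω] (h : Config Y Ω ω0 P)
    (heven : ∀ y : Y, Equiv.Perm.sign (toPermHom Y Ω y) = 1) {c : Y} (hc1 : c ≠ 1)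
    (hc2 : c * c = 1) (hc : ∀ p ∈ P, c * p = p * c) : False := by
  have hc0 := h.centralizer_fix0 hc
  have hmove : ∀ z : Ω, z ≠ ω0 → c • z ≠ z := by
    intro z hz e
    have hm : c ∈ P := h.mem_of_centralizer hc hz (by rw [e]; exact mem_orbit_self z)
    have h7 := h.pow_seventeen hm
    apply hc1
    have : c ^ 17 = (c * c) ^ 8 * c := by rw [← pow_two, ← pow_mul]; exact pow_succ c 16
    rw [hc2, one_pow, one_mul] at this
    rw [← this, h7]
  set σ : Equiv.Perm Ω := toPermHom Y Ω c with hσ
  have hσa : ∀ z, σ z = c • z := fun z => rfl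
  have hsupp : σ.support = Finset.univ.erase ω0 := by
    ext z
    simp only [Equiv.Perm.mem_support, Finset.mem_erase, Finset.mem_univ, and_true]
    constructor
    · intro hz e; apply hz; rw [e]; exact hc0
    · intro hz; exact hmove z hz
  have hcard : σ.support.card = 34 := by
    rw [hsupp, Finset.card_erase_of_mem (Finset.mem_univ _), Finset.card_univ, h.card]
  have hσ2 : σ ^ 2 = 1 := by
    rw [hσ, ← map_pow, pow_two, hc2, map_one]
  have hσ1 : σ ≠ 1 := by
    intro e
    rw [e, Equiv.Perm.support_one, Finset.card_empty] at hcard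
    omega
  have ho : orderOf σ = 2 := orderOf_eq_prime hσ2 hσ1
  obtain ⟨n, hn⟩ := Equiv.Perm.cycleType_prime_order (σ := σ) (by rw [ho]; exact Nat.prime_two)
  rw [ho] at hn
  have hsum := Equiv.Perm.sum_cycleType σ
  rw [hn, Multiset.sum_replicate, hcard, smul_eq_mul] at hsum
  have hn6 : n = 16 := by omega
  have hsign := Equiv.Perm.sign_of_cycleType σ
  rw [hn, hn6, heven c] at hsign
  exact absurd hsign (by decide)

theorem Config.eq_one_of_two_element [Finite Y] [DecidableEq Ω] (h : Config Y Ω ω0 P)
    (heven : ∀ y : Y, Equiv.Perm.sign (toPermHom Y Ω y) = 1) {c : Y} (k : ℕ)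
    (hc2 : c ^ 2 ^ k = 1) (hc : ∀ p ∈ P, c * p = p * c) : c = 1 := by
  by_contra hc1
  have hsq := h.sq_mem_of_centralizer hc
  have h17 := h.pow_seventeen hsq
  have h2k : (c * c) ^ 2 ^ k = 1 := by
    rw [← pow_two, ← pow_mul, mul_comm, pow_mul, hc2, one_pow]
  have hcop : Nat.Coprime 17 (2 ^ k) := Nat.Coprime.pow_right k (by norm_num)
  have hcc : c * c = 1 := by
    have h1 := orderOf_dvd_of_pow_eq_one h17
    have h2 := orderOf_dvd_of_pow_eq_one h2k
    exact orderOf_eq_one_iff.1 (Nat.eq_one_of_dvd_coprimes hcop h1 h2)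
  exact h.false_of_involution heven hc1 hcc hc

theorem Config.isCyclic_mulAut [Finite Y] (h : Config Y Ω ω0 P) :
    IsCyclic (MulAut (P : Subgroup Y)) := by
  have hcyc : IsCyclic (P : Subgroup Y) := isCyclic_of_prime_card h.card_P
  have e := IsCyclic.mulAutMulEquiv (P : Subgroup Y)
  have : IsCyclic (ZMod (Nat.card (P : Subgroup Y)))ˣ := by rw [h.card_P]; infer_instance
  exact isCyclic_of_surjective e.symm e.symm.surjective

theorem Config.false_of_simple [Finite Y] (h : Config Y Ω ω0 P)
    (hs : ∀ M : Subgroup Y, M.Normal → M = ⊥ ∨ M = ⊤) : False := by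
  classical
  have hcard := h.card_eq
  have hspos : 0 < Nat.card (stabilizer Y ω0) := Nat.card_pos
  have heven : ∀ y : Y, Equiv.Perm.sign (toPermHom Y Ω y) = 1 := by
    set f : Y →* ℤˣ := Equiv.Perm.sign.comp (toPermHom Y Ω) with hf
    rcases hs f.ker (MonoidHom.normal_ker f) with h0 | h0
    · exfalso
      have hinj : Function.Injective f := (MonoidHom.ker_eq_bot_iff f).1 h0
      have := Nat.card_le_card_of_injective f hinj
      rw [Nat.card_eq_fintype_card (α := ℤˣ), Fintype.card_units_int] at this
      omega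
    · intro y
      have : y ∈ f.ker := by rw [h0]; trivial
      exact this
  by_cases h2 : 2 ∣ Nat.card Y
  · -- a cyclic Sylow 2-subgroup
    obtain ⟨S0⟩ : Nonempty (Sylow 2 (stabilizer Y ω0)) := inferInstance
    set T : Subgroup Y := (S0 : Subgroup (stabilizer Y ω0)).map (stabilizer Y ω0).subtype with hT
    have hTp : IsPGroup 2 T := S0.2.map _
    have hidx : ¬ 2 ∣ T.index := by
      rw [hT, index_map_subtype]
      have := h.trans
      rw [index_stabilizer_of_transitive Y ω0, Nat.card_eq_fintype_card, h.card]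
      intro hd
      rcases (Nat.Prime.dvd_mul Nat.prime_two).1 hd with h1 | h1
      · exact S0.not_dvd_index h1
      · omega
    have hTn : T ≤ normalizer ((P : Subgroup Y) : Set Y) := by
      rintro _ ⟨t, -, rfl⟩
      exact h.norm t t.2
    let f : T →* MulAut (P : Subgroup Y) :=
      ((P : Subgroup Y).normalizerMonoidHom).comp (inclusion hTn)
    have hf : Function.Injective f := by
      rw [injective_iff_map_eq_one]
      intro t ht
      have h1 : inclusion hTn t ∈ ((P : Subgroup Y).normalizerMonoidHom).ker := ht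
      rw [normalizerMonoidHom_ker, mem_subgroupOf, mem_centralizer_iff] at h1
      obtain ⟨k, hk⟩ := hTp t
      have hk' : (t : Y) ^ 2 ^ k = 1 := congrArg Subtype.val hk
      apply Subtype.ext
      apply h.eq_one_of_two_element heven k hk'
      intro p hp
      exact (h1 p hp).symm
    have := h.isCyclic_mulAut
    have hcyc : IsCyclic T := isCyclic_of_injective f hf
    have hcyc' : IsCyclic (hTp.toSylow hidx) := hcyc
    have hmin : (Nat.card Y).minFac = 2 := (Nat.minFac_eq_two_iff _).2 h2
    have hcomp := IsCyclic.isComplement' hmin hcyc'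
    have hmul := hcomp.card_mul_card
    have hTcard : Nat.card (hTp.toSylow hidx) = Nat.card T := rfl
    have hT2 : 2 ∣ Nat.card T := by
      rw [← hTcard]; exact (hTp.toSylow hidx).dvd_card_of_dvd_card h2
    have hTle : Nat.card T ∣ Nat.card (stabilizer Y ω0) := by
      rw [hT, card_map_of_injective (stabilizer Y ω0).subtype_injective]
      exact card_subgroup_dvd_card _
    have hTle' := Nat.le_of_dvd hspos hTle
    have hT2' := Nat.le_of_dvd Nat.card_pos hT2
    rcases hs _ (MonoidHom.normal_ker (MonoidHom.transferSylow (hTp.toSylow hidx)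
        (hcyc'.normalizer_le_centralizer hmin))) with h0 | h0
    · rw [h0, card_bot, one_mul, hTcard] at hmul
      omega
    · rw [h0, card_top, hTcard] at hmul
      have hpos : 0 < Nat.card Y := Nat.card_pos
      have : Nat.card Y * Nat.card T = Nat.card Y * 1 := by rw [mul_one]; exact hmul
      have := Nat.eq_of_mul_eq_mul_left hpos this
      omega
  · refine false_of_sylow_prime hs 17 P h.card_P ?_ (by omega)
    have : Nat.Coprime (Nat.card Y) 2 :=
      ((Nat.Prime.coprime_iff_not_dvd Nat.prime_two).2 h2).symm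
    exact Nat.Coprime.pow_right 4 this

end

theorem Config.false_aux {Ω : Type v} [Fintype Ω] {ω0 : Ω} : ∀ (n : ℕ) (Y : Type u) [Group Y]
    [Finite Y] [MulAction Y Ω] (P : Sylow 17 Y), Nat.card Y = n → Config Y Ω ω0 P → False := by
  intro n
  induction n using Nat.strong_induction_on with
  | _ n ih =>
    intro Y _ _ _ P hn h
    by_cases hs : ∀ M : Subgroup Y, M.Normal → M = ⊥ ∨ M = ⊤
    · exact h.false_of_simple hs
    · push Not at hs
      obtain ⟨M, hMn, hb, ht⟩ := hs
      have hlt : Nat.card M < n := by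
        rw [← hn]
        refine lt_of_le_of_ne (card_le_card_group M) ?_
        intro e
        exact ht (eq_top_of_card_eq M e)
      exact ih (Nat.card M) hlt M _ rfl (h.restrict hb)

end Cfsg.Agent.Lib.Helper75Hall17
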