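import Cfsg.Agent.Lib.Helper75HallA
set_option autoImplicit false

namespace Cfsg.Agent.Lib.Helper75Hall

open MulAction Subgroup
open scoped Pointwise

universe u v

instance fact_prime_five : Fact (Nat.Prime 5) := ⟨by norm_num⟩

theorem conj_pow_pow {Y : Type*} [Group Y] {u x : Y} {k : ℕ} (h : u * x * u⁻¹ = x ^ k) (j : ℕ) :
    u ^ j * x * (u ^ j)⁻¹ = x ^ (k ^ j) := by
  induction j with
  | zero => simp
  | succ j ih =>
    have : u ^ (j+1) * x * (u ^ (j+1))⁻¹ = u * (u ^ j * x * (u ^ j)⁻¹) * u⁻¹ := by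
      rw [pow_succ']; group
    rw [this, ih, ← conj_pow, h, ← pow_mul, pow_succ']

theorem exists_conj_exponent {Y : Type*} [Group Y] [Finite Y] {u x : Y} {q m : ℕ}
    (hx : orderOf x = q) (hu : u ^ m = 1) (hn : u * x * u⁻¹ ∈ zpowers x) :
    ∃ k : ℕ, u * x * u⁻¹ = x ^ k ∧ ((k : ZMod q)) ^ m = 1 := by
  obtain ⟨k, hk⟩ := (mem_powers_iff_mem_zpowers.2 hn)
  refine ⟨k, hk.symm, ?_⟩
  have h1 := conj_pow_pow hk.symm m
  rw [hu] at h1
  simp only [one_mul, inv_one, mul_one] at h1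
  have h2 : x ^ (k ^ m) = x ^ 1 := by rw [pow_one]; exact h1.symm
  rw [pow_eq_pow_iff_modEq, hx] at h2
  have := (ZMod.natCast_eq_natCast_iff _ _ _).2 h2
  push_cast at this
  exact this

theorem commute_of_normalizes {Y : Type*} [Group Y] [Finite Y] {u x : Y} {q m : ℕ}
    (hx : orderOf x = q) (hu : u ^ m = 1) (hn : u * x * u⁻¹ ∈ zpowers x)
    (hdec : ∀ k : ZMod q, k ^ m = 1 → k = 1) : u * x = x * u := by
  obtain ⟨k, hk, hkm⟩ := exists_conj_exponent hx hu hn
  have h1 := hdec _ hkm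
  have h2 : (k : ZMod q) = ((1:ℕ) : ZMod q) := by rw [h1]; simp
  rw [ZMod.natCast_eq_natCast_iff, ← hx, ← pow_eq_pow_iff_modEq, pow_one] at h2
  rw [h2] at hk
  exact mul_inv_eq_iff_eq_mul.1 hk

section
variable {Y : Type u} [Group Y] {Ω : Type v} [Fintype Ω] [MulAction Y Ω] {ω0 : Ω} {P : Sylow 7 Y}

theorem Config.orderOf_eq [Finite Y] (h : Config Y Ω ω0 P) {x : Y} (hx : x ∈ P) (hx1 : x ≠ 1) :
    orderOf x = 7 := by
  have := orderOf_dvd_of_pow_eq_one (h.pow_seven hx)
  rcases (Nat.dvd_prime (by norm_num : Nat.Prime 7)).1 this with h1 | h1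
  · exact absurd (orderOf_eq_one_iff.1 h1) hx1
  · exact h1

theorem Config.eq_zpowers [Finite Y] (h : Config Y Ω ω0 P) {x : Y} (hx : x ∈ P) (hx1 : x ≠ 1) :
    zpowers x = (P : Subgroup Y) := by
  apply Subgroup.eq_of_le_of_card_ge
  · rw [zpowers_le]; exact hx
  · rw [h.card_P, Nat.card_zpowers, h.orderOf_eq hx hx1]

theorem Config.comm_of_comm [Finite Y] (h : Config Y Ω ω0 P) {x c : Y} (hx : x ∈ P) (hx1 : x ≠ 1)
    (hc : c * x = x * c) : ∀ p ∈ P, c * p = p * c := by
  intro p hp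
  have : p ∈ zpowers x := by rw [h.eq_zpowers hx hx1]; exact hp
  obtain ⟨i, rfl⟩ := mem_zpowers_iff.1 this
  exact ((show Commute c x from hc).zpow_right i).eq

theorem Config.exists_gen [Finite Y] (h : Config Y Ω ω0 P) : ∃ x ∈ P, x ≠ 1 := by
  by_contra hcon
  push Not at hcon
  have : (P : Subgroup Y) = ⊥ := (eq_bot_iff_forall _).2 hcon
  have h7 := h.card_P
  rw [this, card_bot] at h7
  omega

theorem Config.eq_one_of_centralizer_pow_five [Finite Y] (h : Config Y Ω ω0 P) {y : Y}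
    (hc : ∀ p ∈ P, y * p = p * y) (hy : y ^ 5 = 1) : y = 1 := by
  have hsq := h.sq_mem_of_centralizer hc
  have h7 := h.pow_seven hsq
  have h14 : y ^ 14 = 1 := by rw [← h7, ← pow_two, ← pow_mul]
  have h15 : y ^ 15 = 1 := by rw [show 15 = 5 * 3 from rfl, pow_mul, hy, one_pow]
  have : y ^ 15 = y ^ 14 * y := pow_succ y 14
  rw [h15, h14, one_mul] at this
  exact this.symm

theorem Config.eq_one_of_pow_five [Finite Y] (h : Config Y Ω ω0 P) {y : Y} (hy0 : y • ω0 = ω0)
    (hy : y ^ 5 = 1) : y = 1 := by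
  obtain ⟨x, hx, hx1⟩ := h.exists_gen
  have hn := h.norm y hy0
  have hconj : y * x * y⁻¹ ∈ zpowers x := by
    rw [h.eq_zpowers hx hx1]; exact (mem_normalizer_iff.1 hn x).1 hx
  have hcomm := commute_of_normalizes (h.orderOf_eq hx hx1) hy hconj (by decide)
  exact h.eq_one_of_centralizer_pow_five (h.comm_of_comm hx hx1 hcomm) hy

theorem Config.card_eq [Finite Y] (h : Config Y Ω ω0 P) :
    Nat.card Y = 15 * Nat.card (stabilizer Y ω0) := by
  have := h.trans
  have h1 := index_stabilizer_of_transitive Y ω0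
  have h2 := (stabilizer Y ω0).index_mul_card
  rw [h1, Nat.card_eq_fintype_card, h.card] at h2
  exact h2.symm

theorem Config.not_five_dvd [Finite Y] (h : Config Y Ω ω0 P) :
    ¬ 5 ∣ Nat.card (stabilizer Y ω0) := by
  intro hd
  obtain ⟨y, hy⟩ := exists_prime_orderOf_dvd_card' 5 hd
  have h5 : (y : Y) ^ 5 = 1 := by
    have := pow_orderOf_eq_one y
    rw [hy] at this
    exact congrArg Subtype.val this
  have h1 : (y : Y) = 1 := h.eq_one_of_pow_five y.2 h5
  have h2 : y = 1 := Subtype.ext h1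
  rw [h2, orderOf_one] at hy
  omega

theorem Config.not_25_dvd [Finite Y] (h : Config Y Ω ω0 P) : ¬ 25 ∣ Nat.card Y := by
  have h1 := h.card_eq
  have h2 := h.not_five_dvd
  omega

theorem Config.transitive_of_normal (h : Config Y Ω ω0 P) {M : Subgroup Y} [M.Normal]
    (hM : M ≠ ⊥) : IsPretransitive M Ω := by
  have := h.isPreprimitive
  apply IsQuasiPreprimitive.isPretransitive_of_normal (G := Y)
  intro hfix
  apply hM
  rw [eq_bot_iff]
  intro n hn
  rw [mem_bot]
  apply h.faithful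
  intro y
  have : y ∈ fixedPoints M Ω := by rw [hfix]; trivial
  exact this ⟨n, hn⟩

theorem Config.dvd_card_of_normal [Finite Y] (h : Config Y Ω ω0 P) {M : Subgroup Y} [M.Normal]
    (hM : M ≠ ⊥) : 15 ∣ Nat.card M := by
  have := h.transitive_of_normal hM
  have h1 := index_stabilizer_of_transitive M ω0
  have h2 := (stabilizer M ω0).index_mul_card
  rw [h1, Nat.card_eq_fintype_card, h.card] at h2
  exact ⟨_, h2.symm⟩

end

end Cfsg.Agent.Lib.Helper75Hall
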