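import Cfsg.Agent.Lib.Helper75HallC
set_option autoImplicit false

namespace Cfsg.Agent.Lib.Helper75Hall

open MulAction Subgroup
open scoped Pointwise

universe u v

theorem false_of_sylow_prime {Y : Type*} [Group Y] [Finite Y]
    (hs : ∀ M : Subgroup Y, M.Normal → M = ⊥ ∨ M = ⊤) (p : ℕ) [Fact p.Prime] (Q : Sylow p Y)
    (hQ : Nat.card Q = p) (hcop : (Nat.card Y).Coprime (p - 1)) (hlt : p < Nat.card Y) : False := by
  have hcyc : IsCyclic Q := isCyclic_of_prime_card hQ
  have key := card_dvd_of_injective _ (QuotientGroup.kerLift_injective Q.normalizerMonoidHom)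
  rw [normalizerMonoidHom_ker, ← index, ← relIndex] at key
  rw [hcyc.card_mulAut, hQ, Nat.totient_prime Fact.out] at key
  have hle : normalizer (Q : Set Y) ≤ centralizer (Q : Set Y) := by
    refine relIndex_eq_one.mp (Nat.eq_one_of_dvd_coprimes hcop ?_ key)
    exact (relIndex_dvd_card _ _).trans (card_subgroup_dvd_card _)
  have hcomp := MonoidHom.ker_transferSylow_isComplement' Q hle
  have hcard := hcomp.card_mul_card
  have hp1 : 1 < p := (Fact.out : p.Prime).one_lt
  rcases hs _ (MonoidHom.normal_ker (MonoidHom.transferSylow Q hle)) with h0 | h0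
  · rw [h0, card_bot, one_mul] at hcard
    omega
  · rw [h0, card_top] at hcard
    have hpos : 0 < Nat.card Y := Nat.card_pos
    have : Nat.card Y * Nat.card Q = Nat.card Y * 1 := by rw [mul_one]; exact hcard
    have := Nat.eq_of_mul_eq_mul_left hpos this
    omega

theorem card_sylow_eq_prime {Y : Type*} [Group Y] [Finite Y] (p : ℕ) [Fact p.Prime] (Q : Sylow p Y)
    (h1 : p ∣ Nat.card Y) (h2 : ¬ p ^ 2 ∣ Nat.card Y) : Nat.card Q = p := by
  obtain ⟨n, hn⟩ := Q.2.exists_card_eq
  have hd1 : p ∣ Nat.card Q := Q.dvd_card_of_dvd_card h1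
  have hd2 : Nat.card Q ∣ Nat.card Y := card_subgroup_dvd_card _
  have hp1 : 1 < p := (Fact.out : p.Prime).one_lt
  have hn0 : n ≠ 0 := by
    rintro rfl
    rw [hn, pow_zero, Nat.dvd_one] at hd1
    omega
  have hn2 : n < 2 := by
    by_contra hge
    push Not at hge
    apply h2
    refine Dvd.dvd.trans ?_ hd2
    rw [hn]
    exact pow_dvd_pow p hge
  have : n = 1 := by omega
  rw [hn, this, pow_one]

section
variable {Y : Type u} [Group Y] {Ω : Type v} [Fintype Ω] [MulAction Y Ω] {ω0 : Ω} {P : Sylow 7 Y}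

theorem Config.false_of_involution [Finite Y] [DecidableEq Ω] (h : Config Y Ω ω0 P)
    (heven : ∀ y : Y, Equiv.Perm.sign (toPermHom Y Ω y) = 1) {c : Y} (hc1 : c ≠ 1)
    (hc2 : c * c = 1) (hc : ∀ p ∈ P, c * p = p * c) : False := by
  have hc0 := h.centralizer_fix0 hc
  have hmove : ∀ z : Ω, z ≠ ω0 → c • z ≠ z := by
    intro z hz e
    have hm : c ∈ P := h.mem_of_centralizer hc hz (by rw [e]; exact mem_orbit_self z)
    have h7 := h.pow_seven hm
    apply hc1
    have : c ^ 7 = (c * c) ^ 3 * c := by rw [← pow_two, ← pow_mul]; exact pow_succ c 6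
    rw [hc2, one_pow, one_mul] at this
    rw [← this, h7]
  set σ : Equiv.Perm Ω := toPermHom Y Ω c with hσ
  have hσa : ∀ z, σ z = c • z := fun z => rfl
  have hsupp : σ.support = Finset.univ.erase ω0 := by
    ext z
    simp only [Equiv.Perm.mem_support, Finset.mem_erase, Finset.mem_univ, and_true]
    constructor
    · intro hz e; apply hz; rw [e]; exact hc0
    · intro hz; exact hmove z hz
  have hcard : σ.support.card = 14 := by
    rw [hsupp, Finset.card_erase_of_mem (Finset.mem_univ _), Finset.card_univ, h.card]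
  have hσ2 : σ ^ 2 = 1 := by
    rw [hσ, ← map_pow, pow_two, hc2, map_one]
  have hσ1 : σ ≠ 1 := by
    intro e
    rw [e, Equiv.Perm.support_one, Finset.card_empty] at hcard
    omega
  have ho : orderOf σ = 2 := orderOf_eq_prime hσ2 hσ1
  obtain ⟨n, hn⟩ := Equiv.Perm.cycleType_prime_order (σ := σ) (by rw [ho]; exact Nat.prime_two)
  rw [ho] at hn
  have hsum := Equiv.Perm.sum_cycleType σ
  rw [hn, Multiset.sum_replicate, hcard, smul_eq_mul] at hsum
  have hn6 : n = 6 := by omega
  have hsign := Equiv.Perm.sign_of_cycleType σ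
  rw [hn, hn6, heven c] at hsign
  exact absurd hsign (by decide)

theorem Config.conj_eq_or_inv [Finite Y] (h : Config Y Ω ω0 P) {x : Y} (hx : x ∈ P) (hx1 : x ≠ 1)
    {v : Y} (hv0 : v • ω0 = ω0) (hv : v ^ 4 = 1) : v * x * v⁻¹ = x ∨ v * x * v⁻¹ = x⁻¹ := by
  have hn := h.norm v hv0
  have hconj : v * x * v⁻¹ ∈ zpowers x := by
    rw [h.eq_zpowers hx hx1]; exact (mem_normalizer_iff.1 hn x).1 hx
  obtain ⟨k, hk, hkm⟩ := exists_conj_exponent (h.orderOf_eq hx hx1) hv hconj
  have hdec : ∀ k : ZMod 7, k ^ 4 = 1 → k = 1 ∨ k = 6 := by decide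
  rcases hdec _ hkm with h1 | h1
  · left
    have h2 : (k : ZMod 7) = ((1:ℕ) : ZMod 7) := by rw [h1]; simp
    rw [ZMod.natCast_eq_natCast_iff, ← h.orderOf_eq hx hx1, ← pow_eq_pow_iff_modEq, pow_one] at h2
    rw [hk, h2]
  · right
    have h2 : (k : ZMod 7) = ((6:ℕ) : ZMod 7) := by rw [h1]; rfl
    rw [ZMod.natCast_eq_natCast_iff, ← h.orderOf_eq hx hx1, ← pow_eq_pow_iff_modEq] at h2
    rw [hk, h2]
    apply eq_inv_of_mul_eq_one_left
    rw [← pow_succ]
    exact h.pow_seven hx

theorem comm_of_conj_eq {Y : Type*} [Group Y] {a b x : Y} (h : a * x * a⁻¹ = b * x * b⁻¹) :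
    (a⁻¹ * b) * x = x * (a⁻¹ * b) := by
  have : x = a⁻¹ * (b * x * b⁻¹) * a := by rw [← h]; group
  calc (a⁻¹ * b) * x = (a⁻¹ * (b * x * b⁻¹) * a) * (a⁻¹ * b) := by group
    _ = x * (a⁻¹ * b) := by rw [← this]

theorem Config.not_four_dvd [Finite Y] [DecidableEq Ω] (h : Config Y Ω ω0 P)
    (heven : ∀ y : Y, Equiv.Perm.sign (toPermHom Y Ω y) = 1) :
    ¬ 4 ∣ Nat.card (stabilizer Y ω0) := by
  intro hd
  obtain ⟨V, hV⟩ := Sylow.exists_subgroup_card_pow_prime (G := stabilizer Y ω0) 2 (n := 2) hd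
  obtain ⟨x, hx, hx1⟩ := h.exists_gen
  have hV4 : ∀ v : V, ((v : stabilizer Y ω0) : Y) ^ 4 = 1 := by
    intro v
    have := pow_card_eq_one' (G := V) (x := v)
    rw [hV] at this
    exact congrArg (fun t : V => ((t : stabilizer Y ω0) : Y)) this
  have hcase : ∀ v : V, ((v : stabilizer Y ω0) : Y) * x * ((v : stabilizer Y ω0) : Y)⁻¹ = x ∨
      ((v : stabilizer Y ω0) : Y) * x * ((v : stabilizer Y ω0) : Y)⁻¹ = x⁻¹ := by
    intro v
    exact h.conj_eq_or_inv hx hx1 (v : stabilizer Y ω0).2 (hV4 v)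
  have : Fintype V := Fintype.ofFinite V
  have h3 : 2 < Fintype.card V := by
    rw [← Nat.card_eq_fintype_card, hV]; norm_num
  obtain ⟨a, b, c, hab, hac, hbc⟩ := Fintype.two_lt_card_iff.1 h3
  have hex : ∃ c0 : V, c0 ≠ 1 ∧ ((c0 : stabilizer Y ω0) : Y) * x = x * ((c0 : stabilizer Y ω0) : Y) := by
    have key : ∀ a b : V, a ≠ b →
        ((a : stabilizer Y ω0) : Y) * x * ((a : stabilizer Y ω0) : Y)⁻¹ =
        ((b : stabilizer Y ω0) : Y) * x * ((b : stabilizer Y ω0) : Y)⁻¹ →
        ∃ c0 : V, c0 ≠ 1 ∧ ((c0 : stabilizer Y ω0) : Y) * x = x * ((c0 : stabilizer Y ω0) : Y) := by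
      intro a b hab he
      refine ⟨a⁻¹ * b, ?_, comm_of_conj_eq he⟩
      intro e
      exact hab (inv_mul_eq_one.1 e)
    rcases hcase a with ha | ha <;> rcases hcase b with hb | hb <;> rcases hcase c with hc | hc
    · exact key a b hab (ha.trans hb.symm)
    · exact key a b hab (ha.trans hb.symm)
    · exact key a c hac (ha.trans hc.symm)
    · exact key b c hbc (hb.trans hc.symm)
    · exact key b c hbc (hb.trans hc.symm)
    · exact key a c hac (ha.trans hc.symm)
    · exact key a b hab (ha.trans hb.symm)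
    · exact key a b hab (ha.trans hb.symm)
  obtain ⟨c0, hc01, hc0x⟩ := hex
  set c : Y := ((c0 : stabilizer Y ω0) : Y) with hc
  have hc1 : c ≠ 1 := by
    intro e
    apply hc01
    exact Subtype.ext (Subtype.ext e)
  have hcen := h.comm_of_comm hx hx1 hc0x
  have hsq := h.sq_mem_of_centralizer hcen
  have h7 := h.pow_seven hsq
  have h4 : (c * c) ^ 2 = 1 := by rw [← pow_two, ← pow_mul]; exact hV4 c0
  have hcc : c * c = 1 := by
    have : (c * c) ^ 7 = ((c * c) ^ 2) ^ 3 * (c * c) := by rw [← pow_mul]; exact pow_succ _ 6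
    rw [h4, one_pow, one_mul] at this
    rw [← this, h7]
  exact h.false_of_involution heven hc1 hcc hcen

theorem Config.false_of_simple [Finite Y] (h : Config Y Ω ω0 P)
    (hs : ∀ M : Subgroup Y, M.Normal → M = ⊥ ∨ M = ⊤) : False := by
  classical
  have hcard := h.card_eq
  have hspos : 0 < Nat.card (stabilizer Y ω0) := Nat.card_pos
  have heven : ∀ y : Y, Equiv.Perm.sign (toPermHom Y Ω y) = 1 := by
    set f : Y →* ℤˣ := Equiv.Perm.sign.comp (toPermHom Y Ω) with hf
    rcases hs f.ker (MonoidHom.normal_ker f) with h0 | h0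
    · exfalso
      have hinj : Function.Injective f := (MonoidHom.ker_eq_bot_iff f).1 h0
      have := Nat.card_le_card_of_injective f hinj
      rw [Nat.card_eq_fintype_card (α := ℤˣ), Fintype.card_units_int] at this
      omega
    · intro y
      have : y ∈ f.ker := by rw [h0]; trivial
      exact this
  have h4 := h.not_four_dvd heven
  have h5 := h.not_five_dvd
  by_cases h2 : 2 ∣ Nat.card Y
  · obtain ⟨Q⟩ : Nonempty (Sylow 2 Y) := inferInstance
    have hQ : Nat.card Q = 2 := card_sylow_eq_prime 2 Q h2 (by norm_num; omega)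
    exact false_of_sylow_prime hs 2 Q hQ (by norm_num) (by omega)
  · obtain ⟨Q⟩ : Nonempty (Sylow 5 Y) := inferInstance
    have hQ : Nat.card Q = 5 := card_sylow_eq_prime 5 Q (by omega) (by norm_num; omega)
    refine false_of_sylow_prime hs 5 Q hQ ?_ (by omega)
    have : Nat.Coprime (Nat.card Y) 2 :=
      ((Nat.Prime.coprime_iff_not_dvd Nat.prime_two).2 h2).symm
    exact Nat.Coprime.pow_right 2 this

end

theorem Config.false_aux {Ω : Type v} [Fintype Ω] {ω0 : Ω} : ∀ (n : ℕ) (Y : Type u) [Group Y]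
    [Finite Y] [MulAction Y Ω] (P : Sylow 7 Y), Nat.card Y = n → Config Y Ω ω0 P → False := by
  intro n
  induction n using Nat.strong_induction_on with
  | _ n ih =>
    intro Y _ _ _ P hn h
    by_cases hs : ∀ M : Subgroup Y, M.Normal → M = ⊥ ∨ M = ⊤
    · exact h.false_of_simple hs
    · push Not at hs
      obtain ⟨M, hMn, hb, ht⟩ := hs
      have hlt : Nat.card M < n := by
        rw [← hn]
        refine lt_of_le_of_ne (card_le_card_group M) ?_
        intro e
        exact ht (eq_top_of_card_eq M e)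
      exact ih (Nat.card M) hlt M _ rfl (h.restrict hb)

end Cfsg.Agent.Lib.Helper75Hall
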