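import Mathlib

set_option autoImplicit false

namespace Cfsg.Agent.Lib.Helper75Schur

open scoped Pointwise

/-- `f` of the coordinate difference is an invariant of pairs. -/
def Inv (G : Type*) {Ω : Type*} [Group G] [MulAction G Ω] {n : ℕ} (e : Ω ≃ ZMod n)
    {X : Type*} (f : ZMod n → X) : Prop :=
  ∀ (g : G) (x y : Ω), f (e (g • y) - e (g • x)) = f (e y - e x)

/-- a set of differences is invariant. -/
def InvSet (G : Type*) {Ω : Type*} [Group G] [MulAction G Ω] {n : ℕ} (e : Ω ≃ ZMod n)
    (T : Set (ZMod n)) : Prop :=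
  ∀ (g : G) (x y : Ω), e (g • y) - e (g • x) ∈ T ↔ e y - e x ∈ T

variable {G Ω : Type*} [Group G] [MulAction G Ω] {n : ℕ} {e : Ω ≃ ZMod n}

theorem Inv.invSet {X : Type*} {f : ZMod n → X} (h : Inv G e f) (P : X → Prop) :
    InvSet G e {d | P (f d)} := by
  intro g x y
  simp only [Set.mem_ofPred_eq, h g x y]

theorem InvSet.of_imp {T : Set (ZMod n)}
    (h : ∀ (g : G) (x y : Ω), e y - e x ∈ T → e (g • y) - e (g • x) ∈ T) : InvSet G e T := by
  intro g x y
  refine ⟨fun h1 => ?_, h g x y⟩
  have := h g⁻¹ (g • x) (g • y) h1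
  simpa using this

theorem InvSet.inter {S T : Set (ZMod n)} (hS : InvSet G e S) (hT : InvSet G e T) :
    InvSet G e (S ∩ T) := fun g x y => by
  simp only [Set.mem_inter_iff, hS g x y, hT g x y]

theorem InvSet.compl {T : Set (ZMod n)} (hT : InvSet G e T) : InvSet G e Tᶜ := fun g x y => by
  simp only [Set.mem_compl_iff, hT g x y]

theorem invSet_zero : InvSet G e {0} := fun g x y => by
  simp only [Set.mem_singleton_iff, sub_eq_zero, EmbeddingLike.apply_eq_iff_eq]
  exact ⟨fun h => (MulAction.injective g h), fun h => by rw [h]⟩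

theorem InvSet.inv_ind {T : Set (ZMod n)} [DecidablePred (· ∈ T)] (hT : InvSet G e T)
    (K : Type*) [Zero K] [One K] : Inv G e (fun d => if d ∈ T then (1 : K) else 0) := by
  intro g x y
  simp only [hT g x y]

theorem Inv.neg {X : Type*} {f : ZMod n → X} (h : Inv G e f) : Inv G e (fun d => f (-d)) := by
  intro g x y
  simp only [neg_sub]
  exact h g y x

theorem Inv.conv [NeZero n] {K : Type*} [CommSemiring K] {f₁ f₂ : ZMod n → K}
    (h₁ : Inv G e f₁) (h₂ : Inv G e f₂) : Inv G e (fun d => ∑ s, f₁ s * f₂ (d - s)) := by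
  intro g x y
  let σ : ZMod n ≃ ZMod n :=
    (Equiv.addRight (e x)).trans (e.symm.trans ((MulAction.toPerm g).trans
      (e.trans (Equiv.subRight (e (g • x))))))
  have hσ : ∀ s, σ s = e (g • e.symm (s + e x)) - e (g • x) := fun s => rfl
  symm
  apply Fintype.sum_equiv σ
  intro s
  rw [hσ]
  have e1 := h₁ g x (e.symm (s + e x))
  have e2 := h₂ g (e.symm (s + e x)) y
  simp only [Equiv.apply_symm_apply, add_sub_cancel_right] at e1 e2
  rw [e1]
  congr 1
  rw [show e (g • y) - e (g • x) - (e (g • e.symm (s + e x)) - e (g • x))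
    = e (g • y) - e (g • e.symm (s + e x)) by ring, e2]
  congr 1
  ring

/-- the additive subgroup generated by an invariant set is invariant -/
theorem InvSet.closure {W : Set (ZMod n)} (hW : InvSet G e W) :
    InvSet G e (AddSubgroup.closure W : Set (ZMod n)) := by
  apply InvSet.of_imp
  intro g
  have key : ∀ d ∈ AddSubgroup.closure W, ∀ x y : Ω, e y - e x = d →
      e (g • y) - e (g • x) ∈ AddSubgroup.closure W := by
    intro d hd
    induction hd using AddSubgroup.closure_induction with
    | mem d hd =>
      intro x y hxy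
      apply AddSubgroup.subset_closure
      rw [hW g x y, hxy]; exact hd
    | zero =>
      intro x y hxy
      have : y = x := e.injective (sub_eq_zero.1 hxy)
      rw [this, sub_self]; exact AddSubgroup.zero_mem _
    | add a b _ _ iha ihb =>
      intro x y hxy
      have h1 := iha x (e.symm (e x + a)) (by simp)
      have h2 := ihb (e.symm (e x + a)) y (by
        simp only [Equiv.apply_symm_apply]
        rw [← sub_sub, hxy]; ring)
      have := AddSubgroup.add_mem _ h2 h1
      simpa using this
    | neg a _ iha =>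
      intro x y hxy
      have h1 := iha y x (by rw [← neg_sub, hxy, neg_neg])
      have := AddSubgroup.neg_mem _ h1
      simpa using this
  intro x y hxy
  exact key _ hxy x y rfl

/-- an invariant subgroup gives a block; primitivity makes it trivial -/
theorem subgroup_trivial (hprim : MulAction.IsPreprimitive G Ω) (L : AddSubgroup (ZMod n))
    (hL : InvSet G e (L : Set (ZMod n))) : L = ⊥ ∨ L = ⊤ := by
  have hB : MulAction.IsBlock G (e ⁻¹' (L : Set (ZMod n))) := by
    rw [MulAction.isBlock_iff_smul_eq_of_mem]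
    intro g a ha hga
    simp only [Set.mem_preimage, SetLike.mem_coe] at ha hga
    have hsub : ∀ (g : G) (a : Ω), e a ∈ L → e (g • a) ∈ L →
        ∀ y, e y ∈ L → e (g • y) ∈ L := by
      intro g a ha hga y hy
      have h1 : e (g • y) - e (g • a) ∈ (L : Set (ZMod n)) :=
        (hL g a y).2 (L.sub_mem hy ha)
      have := L.add_mem h1 hga
      simpa using this
    ext y
    constructor
    · rintro ⟨z, hz, rfl⟩
      exact hsub g a ha hga z hz
    · intro hy
      refine ⟨g⁻¹ • y, ?_, by simp⟩
      exact hsub g⁻¹ (g • a) hga (by simpa using ha) y hy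
  rcases hprim.isTrivialBlock_of_isBlock hB with h | h
  · left
    rw [eq_bot_iff]
    intro d hd
    have h1 : e.symm d ∈ e ⁻¹' (L : Set (ZMod n)) := by simpa using hd
    have h2 : e.symm 0 ∈ e ⁻¹' (L : Set (ZMod n)) := by simp
    have := h h1 h2
    have h3 : d = 0 := e.symm.injective this
    rw [h3]; exact AddSubgroup.zero_mem _
  · right
    rw [eq_top_iff]
    intro d _
    have : e.symm d ∈ e ⁻¹' (L : Set (ZMod n)) := by rw [h]; trivial
    simpa using this

/-- the translation stabiliser of an invariant set -/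
def stab (T : Set (ZMod n)) : AddSubgroup (ZMod n) where
  carrier := {h | ∀ t, t + h ∈ T ↔ t ∈ T}
  zero_mem' := by intro t; simp
  add_mem' := by
    intro a b ha hb t
    rw [← add_assoc, hb, ha]
  neg_mem' := by
    intro a ha t
    have := ha (t + -a)
    simp only [neg_add_cancel_right] at this
    exact this.symm

theorem InvSet.stab {T : Set (ZMod n)} (hT : InvSet G e T) :
    InvSet G e (stab T : Set (ZMod n)) := by
  apply InvSet.of_imp
  intro g x y hxy t
  -- t = e z' - e (g y)
  have hxy' : ∀ t, t + (e y - e x) ∈ T ↔ t ∈ T := hxy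
  set z : Ω := g⁻¹ • e.symm (t + e (g • y)) with hz
  have h1 : e (g • z) = t + e (g • y) := by rw [hz]; simp
  have h2 : t = e (g • z) - e (g • y) := by rw [h1]; ring
  rw [h2, show e (g • z) - e (g • y) + (e (g • y) - e (g • x)) = e (g • z) - e (g • x) by ring,
    hT g x z, hT g y z, ← hxy' (e z - e y)]
  rw [show e z - e y + (e y - e x) = e z - e x by ring]

end Cfsg.Agent.Lib.Helper75Schur
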