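import Cfsg.Agent.Lib.Helper75Schur

set_option autoImplicit false

namespace Cfsg.Agent.Lib.Helper75Schur

open scoped Pointwise

variable {G Ω : Type*} [Group G] [MulAction G Ω] {n : ℕ} {e : Ω ≃ ZMod n}

theorem inv_mul [NeZero n] {K : Type*} [CommSemiring K] (a b : AddMonoidAlgebra K (ZMod n))
    (ha : Inv G e (fun d => a.coeff d)) (hb : Inv G e (fun d => b.coeff d)) :
    Inv G e (fun d => (a * b).coeff d) := by
  have : (fun d => (a * b).coeff d) = fun d => ∑ s, a.coeff s * b.coeff (d - s) := by
    funext d
    rw [AddMonoidAlgebra.coeff_mul_apply_left, Finsupp.sum_fintype _ _ (by simp)]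
    apply Finset.sum_congr rfl
    intro s _
    congr 2
    ring
  rw [this]
  exact ha.conv hb

theorem inv_pow [NeZero n] {K : Type*} [CommSemiring K] (a : AddMonoidAlgebra K (ZMod n))
    (ha : Inv G e (fun d => a.coeff d)) (m : ℕ) :
    Inv G e (fun d => (a ^ m).coeff d) := by
  induction m with
  | zero =>
    intro g x y
    classical
    simp only [pow_zero, AddMonoidAlgebra.one_def, AddMonoidAlgebra.coeff_single,
      Finsupp.single_apply]
    have := (invSet_zero (G := G) (e := e)) g x y
    simp only [Set.mem_singleton_iff] at this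
    simp only [eq_comm (a := (0 : ZMod n)), this]
  | succ m ih =>
    rw [show (fun d => (a ^ (m + 1)).coeff d) = fun d => (a ^ m * a).coeff d by
      funext d; rw [pow_succ]]
    exact inv_mul _ _ ih ha

theorem InvSet.frob [NeZero n] {T : Finset (ZMod n)} (hT : InvSet G e (T : Set (ZMod n)))
    (p : ℕ) [Fact p.Prime] :
    Inv G e (fun d => (((T.filter (fun t => p • t = d)).card : ℕ) : ZMod p)) := by
  classical
  set a : AddMonoidAlgebra (ZMod p) (ZMod n) := ∑ t ∈ T, AddMonoidAlgebra.single t 1 with ha
  have hchar : CharP (AddMonoidAlgebra (ZMod p) (ZMod n)) p :=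
    charP_of_injective_algebraMap (algebraMap (ZMod p) _).injective p
  have h1 : Inv G e (fun d => a.coeff d) := by
    have : (fun d => a.coeff d) = fun d => if d ∈ (T : Set (ZMod n)) then (1 : ZMod p) else 0 := by
      funext d
      rw [ha, AddMonoidAlgebra.coeff_sum, Finsupp.finsetSum_apply]
      simp only [AddMonoidAlgebra.coeff_single, Finsupp.single_apply, Finset.sum_ite_eq',
        Finset.mem_coe]
    rw [this]
    exact hT.inv_ind _
  have h2 := inv_pow a h1 p
  have h3 : (fun d => (a ^ p).coeff d)
      = fun d => (((T.filter (fun t => p • t = d)).card : ℕ) : ZMod p) := by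
    funext d
    rw [ha, sum_pow_char p, AddMonoidAlgebra.coeff_sum, Finsupp.finsetSum_apply]
    simp only [AddMonoidAlgebra.single_pow, one_pow, AddMonoidAlgebra.coeff_single,
      Finsupp.single_apply]
    rw [Finset.card_filter]
    push_cast
    rfl
  rw [← h3]
  exact h2

section main

variable {p k : ℕ}

theorem natCast_ne_zero_of_lt {m : ℕ} (h0 : 0 < m) (h1 : m < n) : (m : ZMod n) ≠ 0 := by
  intro h
  rw [ZMod.natCast_eq_zero_iff] at h
  exact absurd (Nat.le_of_dvd h0 h) (by omega)

theorem card_om_le [NeZero n] (hp : 0 < p) :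
    (Finset.univ.filter (fun a : ZMod n => p • a = 0)).card ≤ p :=
  IsAddCyclic.card_nsmul_eq_zero_le hp

/-- (a): outside the socle, an invariant set is a union of cosets of the socle -/
theorem coset_mem [NeZero n] [Fact p.Prime] (hprim : MulAction.IsPreprimitive G Ω)
    (hk : 2 ≤ k) (hn : n = p * k)
    {T : Finset (ZMod n)} (hT : InvSet G e (T : Set (ZMod n)))
    {t : ZMod n} (ht : t ∈ T) (htp : p • t ≠ 0) {w : ZMod n} (hw : p • w = 0) : t + w ∈ T := by
  classical
  have hp := (Fact.out : p.Prime)
  have hf := hT.frob p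
  have hW := hf.invSet (fun c => c ≠ 0)
  set W : Set (ZMod n) := {d | (((T.filter (fun t => p • t = d)).card : ℕ) : ZMod p) ≠ 0} with hWdef
  have hcl := subgroup_trivial hprim _ hW.closure
  have hle : AddSubgroup.closure W ≤ (nsmulAddMonoidHom (α := ZMod n) p).range := by
    rw [AddSubgroup.closure_le]
    intro d hd
    have h1 : (T.filter (fun t => p • t = d)).Nonempty := by
      rw [Finset.nonempty_iff_ne_empty]
      intro h0
      apply hd
      rw [h0]; simp
    obtain ⟨s, hs⟩ := h1
    exact ⟨s, (Finset.mem_filter.1 hs).2⟩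
  have hne : AddSubgroup.closure W ≠ ⊤ := by
    intro h
    have h1 : (1 : ZMod n) ∈ (nsmulAddMonoidHom (α := ZMod n) p).range := hle (by rw [h]; trivial)
    obtain ⟨a, ha⟩ := h1
    have h2 : p • a = 1 := ha
    have h3 : k • (p • a) = 0 := by
      rw [smul_smul, mul_comm, ← hn]
      simp
    rw [h2] at h3
    have h4 : (k : ZMod n) ≠ 0 := natCast_ne_zero_of_lt (by omega) (by
      rw [hn]; nlinarith [hp.two_le])
    apply h4
    simpa using h3
  have hbot := hcl.resolve_right hne
  have hd0 : (((T.filter (fun s => p • s = p • t)).card : ℕ) : ZMod p) = 0 := by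
    by_contra h
    have h1 : p • t ∈ AddSubgroup.closure W := AddSubgroup.subset_closure h
    rw [hbot, AddSubgroup.mem_bot] at h1
    exact htp h1
  rw [ZMod.natCast_eq_zero_iff] at hd0
  have hpos : 0 < (T.filter (fun s => p • s = p • t)).card :=
    Finset.card_pos.2 ⟨t, Finset.mem_filter.2 ⟨ht, rfl⟩⟩
  have hge := Nat.le_of_dvd hpos hd0
  have hF : (Finset.univ.filter (fun s : ZMod n => p • s = p • t)).card ≤ p := by
    refine le_trans ?_ (card_om_le (n := n) hp.pos)
    apply Finset.card_le_card_of_injOn (fun s => s - t)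
    · intro s hs
      simp only [Finset.coe_filter, Finset.mem_univ, true_and, Set.mem_ofPred_eq] at hs ⊢
      rw [smul_sub, hs, sub_self]
    · intro a _ b _ hab
      exact sub_left_injective hab
  have heq : T.filter (fun s => p • s = p • t) = Finset.univ.filter (fun s : ZMod n => p • s = p • t) := by
    apply Finset.eq_of_subset_of_card_le
    · intro s hs
      simp only [Finset.mem_filter, Finset.mem_univ, true_and] at hs ⊢
      exact hs.2
    · omega
  have : t + w ∈ T.filter (fun s => p • s = p • t) := by
    rw [heq]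
    simp only [Finset.mem_filter, Finset.mem_univ, true_and]
    rw [smul_add, hw, add_zero]
  exact (Finset.mem_filter.1 this).1

/-- (b): an admissible invariant set meets the socle -/
theorem exists_mem_om [NeZero n] [Fact p.Prime] (hprim : MulAction.IsPreprimitive G Ω)
    (hk : 2 ≤ k) (hn : n = p * k)
    {T : Finset (ZMod n)} (hT : InvSet G e (T : Set (ZMod n))) (h0 : (0 : ZMod n) ∉ T)
    (hne : T.Nonempty) : ∃ t ∈ T, p • t = 0 := by
  classical
  have hp := (Fact.out : p.Prime)
  by_contra hcon
  push Not at hcon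
  have hst : ∀ w : ZMod n, p • w = 0 → w ∈ stab (T : Set (ZMod n)) := by
    intro w hw t
    simp only [Finset.mem_coe]
    constructor
    · intro h
      have := coset_mem hprim hk hn hT h (hcon _ h) (w := -w) (by rw [smul_neg, hw, neg_zero])
      simpa using this
    · intro h
      exact coset_mem hprim hk hn hT h (hcon _ h) hw
  rcases subgroup_trivial hprim _ hT.stab with h | h
  · have h1 : (k : ZMod n) ∈ stab (T : Set (ZMod n)) := hst _ (by
      rw [nsmul_eq_mul, ← Nat.cast_mul, ← hn]; simp)
    rw [h, AddSubgroup.mem_bot] at h1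
    exact natCast_ne_zero_of_lt (by omega) (by rw [hn]; nlinarith [hp.two_le]) h1
  · obtain ⟨t, ht⟩ := hne
    have h1 : -t ∈ stab (T : Set (ZMod n)) := by rw [h]; trivial
    have := (h1 t).2 ht
    rw [add_neg_cancel] at this
    exact h0 this

/-- (c): an admissible invariant set is not inside the socle -/
theorem exists_notMem_om [NeZero n] [Fact p.Prime] (hprim : MulAction.IsPreprimitive G Ω)
    (hk : 2 ≤ k) (hn : n = p * k)
    {T : Finset (ZMod n)} (hT : InvSet G e (T : Set (ZMod n))) (h0 : (0 : ZMod n) ∉ T)
    (hne : T.Nonempty) : ∃ t ∈ T, p • t ≠ 0 := by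
  classical
  have hp := (Fact.out : p.Prime)
  by_contra hcon
  push Not at hcon
  have hle : AddSubgroup.closure (T : Set (ZMod n)) ≤ (nsmulAddMonoidHom (α := ZMod n) p).ker := by
    rw [AddSubgroup.closure_le]
    intro t ht
    exact hcon t ht
  rcases subgroup_trivial hprim _ hT.closure with h | h
  · obtain ⟨t, ht⟩ := hne
    have h1 : t ∈ AddSubgroup.closure (T : Set (ZMod n)) := AddSubgroup.subset_closure ht
    rw [h, AddSubgroup.mem_bot] at h1
    rw [h1] at ht
    exact h0 ht
  · have h1 : (1 : ZMod n) ∈ (nsmulAddMonoidHom (α := ZMod n) p).ker := hle (by rw [h]; trivial)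
    have h2 : p • (1 : ZMod n) = 0 := h1
    apply natCast_ne_zero_of_lt (n := n) hp.pos (by rw [hn]; nlinarith [hp.pos])
    simpa using h2

end main

end Cfsg.Agent.Lib.Helper75Schur
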