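import Cfsg.Agent.Lib.Helper75SchurB

set_option autoImplicit false

namespace Cfsg.Agent.Lib.Helper75Schur

open scoped Pointwise

variable {G Ω : Type*} [Group G] [MulAction G Ω] {n : ℕ} {e : Ω ≃ ZMod n} {p k : ℕ}

theorem InvSet.inv_count [NeZero n] {T : Finset (ZMod n)} (hT : InvSet G e (T : Set (ZMod n))) :
    Inv G e (fun d => (T.filter (fun t => t + d ∈ T)).card) := by
  classical
  have h1 : Inv G e (fun d => if d ∈ (T : Set (ZMod n)) then (1 : ℕ) else 0) := hT.inv_ind ℕ
  have h2 := h1.neg.conv h1
  have : (fun d => (T.filter (fun t => t + d ∈ T)).card)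
      = fun d => ∑ s, (if -s ∈ (T : Set (ZMod n)) then (1 : ℕ) else 0) *
          (if d - s ∈ (T : Set (ZMod n)) then (1 : ℕ) else 0) := by
    funext d
    rw [Finset.card_filter]
    have e1 : ∑ t ∈ T, (if t + d ∈ T then (1 : ℕ) else 0)
        = ∑ t, (if t ∈ T then (1 : ℕ) else 0) * (if t + d ∈ T then (1 : ℕ) else 0) := by
      rw [← Finset.sum_subset (Finset.subset_univ T)]
      · apply Finset.sum_congr rfl
        intro t ht
        simp [ht]
      · intro t _ ht
        simp [ht]
    rw [e1]
    apply Fintype.sum_equiv (Equiv.neg (ZMod n))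
    intro t
    simp only [Equiv.neg_apply, neg_neg, Finset.mem_coe, sub_neg_eq_add, add_comm d t]
  rw [this]
  exact h2

theorem sum_count [NeZero n] (T : Finset (ZMod n)) :
    ∑ d, (T.filter (fun t => t + d ∈ T)).card = T.card * T.card := by
  classical
  simp only [Finset.card_filter]
  rw [Finset.sum_comm]
  rw [Finset.sum_congr rfl (g := fun _ => T.card)]
  · simp
  · intro t _
    rw [← Finset.card_filter]
    apply Finset.card_bij (fun d _ => t + d)
    · intro d hd
      exact (Finset.mem_filter.1 hd).2
    · intro a _ b _ hab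
      exact add_left_cancel hab
    · intro s hs
      exact ⟨s - t, by simp [hs], by ring⟩

/-- no admissible invariant set of at most half size -/
theorem no_small [NeZero n] [Fact p.Prime] (hprim : MulAction.IsPreprimitive G Ω)
    (hk : 2 ≤ k) (hn : n = p * k)
    {T : Finset (ZMod n)} (hT : InvSet G e (T : Set (ZMod n))) (h0 : (0 : ZMod n) ∉ T)
    (hne : T.Nonempty) (hsmall : 2 * T.card + 1 ≤ n) : False := by
  classical
  set N : ZMod n → ℕ := fun d => (T.filter (fun t => t + d ∈ T)).card with hN
  have hNinv : Inv G e N := hT.inv_count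
  set U := T.filter (fun t => p • t ≠ 0) with hU
  set A := T.filter (fun t => p • t = 0) with hA
  set Om := Finset.univ.filter (fun a : ZMod n => p • a = 0) with hOm
  have hcard : T.card = A.card + U.card := by
    rw [hU, hA]
    exact (Finset.card_filter_add_card_filter_not _).symm
  -- N ≥ |U| on the socle
  have h1 : ∀ x : ZMod n, p • x = 0 → U.card ≤ N x := by
    intro x hx
    apply Finset.card_le_card
    intro t ht
    rw [hU, Finset.mem_filter] at ht
    rw [Finset.mem_filter]
    exact ⟨ht.1, coset_mem hprim hk hn hT ht.1 ht.2 hx⟩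
  -- hence everywhere
  have h2 : ∀ z : ZMod n, z ≠ 0 → U.card ≤ N z := by
    by_contra hcon
    push Not at hcon
    obtain ⟨z0, hz0, hz1⟩ := hcon
    set Z := Finset.univ.filter (fun z : ZMod n => z ≠ 0 ∧ N z < U.card) with hZ
    have hZinv : InvSet G e (Z : Set (ZMod n)) := by
      have i1 := (invSet_zero (G := G) (e := e)).compl.inter (hNinv.invSet (fun c => c < U.card))
      convert i1 using 1
      ext z
      simp [hZ]
    obtain ⟨t, ht, htp⟩ := exists_mem_om hprim hk hn hZinv (by simp [hZ])
      ⟨z0, by simp [hZ, hz0, hz1]⟩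
    rw [hZ, Finset.mem_filter] at ht
    exact absurd (h1 t htp) (by omega)
  -- counting
  have h3 := sum_count T
  have h4 : ∑ d, N d = N 0 + ∑ d ∈ Finset.univ.erase 0, N d := by
    rw [Finset.add_sum_erase _ _ (Finset.mem_univ _)]
  have h5 : N 0 = T.card := by
    rw [hN]
    simp only [add_zero]
    rw [Finset.filter_true_of_mem (fun t ht => ht)]
  have h6 : (n - 1) * U.card ≤ ∑ d ∈ Finset.univ.erase (0 : ZMod n), N d := by
    have : (Finset.univ.erase (0 : ZMod n)).card = n - 1 := by
      rw [Finset.card_erase_of_mem (Finset.mem_univ _), Finset.card_univ, ZMod.card]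
    rw [← this, ← smul_eq_mul]
    apply Finset.card_nsmul_le_sum
    intro d hd
    exact h2 d (Finset.ne_of_mem_erase hd)
  -- sizes
  obtain ⟨t0, ht0, ht0p⟩ := exists_notMem_om hprim hk hn hT h0 hne
  have h7 : Om.card ≤ U.card := by
    apply Finset.card_le_card_of_injOn (fun w => t0 + w)
    · intro w hw
      simp only [hOm, Finset.coe_filter, Finset.mem_univ, true_and, Set.mem_ofPred_eq] at hw
      simp only [hU, Finset.coe_filter, Set.mem_ofPred_eq]
      refine ⟨coset_mem hprim hk hn hT ht0 ht0p hw, ?_⟩
      rw [smul_add, hw, add_zero]; exact ht0p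
    · intro a _ b _ hab
      exact add_left_cancel hab
  have h8 : A.card + 1 ≤ Om.card := by
    have : insert (0 : ZMod n) A ⊆ Om := by
      intro a ha
      rw [Finset.mem_insert] at ha
      rw [hOm, Finset.mem_filter]
      rcases ha with rfl | ha
      · simp
      · exact ⟨Finset.mem_univ _, (Finset.mem_filter.1 ha).2⟩
    have h9 := Finset.card_le_card this
    rwa [Finset.card_insert_of_notMem (fun h => h0 (Finset.mem_filter.1 h).1)] at h9
  have hTpos : 0 < T.card := Finset.card_pos.2 hne
  have h10 : T.card * T.card ≥ T.card + (n - 1) * U.card := by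
    rw [← h3, h4, h5]; omega
  have h11 : 2 * T.card ≤ n - 1 := by omega
  have h12 : T.card * T.card ≥ T.card + 2 * T.card * U.card := by
    calc T.card * T.card ≥ T.card + (n - 1) * U.card := h10
      _ ≥ T.card + 2 * T.card * U.card := by
        apply Nat.add_le_add_left
        exact Nat.mul_le_mul_right _ h11
  have h13 : T.card ≥ 1 + 2 * U.card := by
    by_contra hlt
    push Not at hlt
    have : T.card * T.card < T.card * (1 + 2 * U.card) := Nat.mul_lt_mul_of_pos_left hlt hTpos
    nlinarith
  omega


/-- every admissible invariant set is everything -/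
theorem adm_eq [NeZero n] [Fact p.Prime] (hprim : MulAction.IsPreprimitive G Ω)
    (hk : 2 ≤ k) (hn : n = p * k)
    {T : Finset (ZMod n)} (hT : InvSet G e (T : Set (ZMod n))) (h0 : (0 : ZMod n) ∉ T)
    (hne : T.Nonempty) : ∀ d : ZMod n, d ≠ 0 → d ∈ T := by
  classical
  by_contra hcon
  push Not at hcon
  obtain ⟨d0, hd0, hd1⟩ := hcon
  set T' := Finset.univ.filter (fun z : ZMod n => z ≠ 0 ∧ z ∉ T) with hT'
  have hT'inv : InvSet G e (T' : Set (ZMod n)) := by
    have i1 := (invSet_zero (G := G) (e := e)).compl.inter hT.compl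
    convert i1 using 1
    ext z
    simp [hT']
  have h0' : (0 : ZMod n) ∉ T' := by simp [hT']
  have hne' : T'.Nonempty := ⟨d0, by simp [hT', hd0, hd1]⟩
  have hcard : T.card + T'.card + 1 = n := by
    have h1 : Disjoint T T' := by
      rw [Finset.disjoint_left]
      intro a ha ha'
      exact (Finset.mem_filter.1 ha').2.2 ha
    have h2 : insert (0 : ZMod n) (T ∪ T') = Finset.univ := by
      ext a
      simp only [Finset.mem_insert, Finset.mem_union, hT', Finset.mem_filter, Finset.mem_univ,
        true_and, iff_true]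
      tauto
    have h3 : (insert (0 : ZMod n) (T ∪ T')).card = T.card + T'.card + 1 := by
      rw [Finset.card_insert_of_notMem (by simp [h0, h0']), Finset.card_union_of_disjoint h1]
    rw [← h3, h2, Finset.card_univ, ZMod.card]
  rcases Nat.le_total T.card T'.card with h | h
  · exact no_small hprim hk hn hT h0 hne (by omega)
  · exact no_small hprim hk hn hT'inv h0' hne' (by omega)

theorem coord_pow {c : G} (he : ∀ x, e (c • x) = e x + 1) (m : ℕ) (x : Ω) :
    e (c ^ m • x) = e x + m := by
  induction m with
  | zero => simp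
  | succ m ih => rw [pow_succ', mul_smul, he, ih]; push_cast; ring

/-- **Schur.** A primitive group containing a regular cyclic subgroup of composite order is
doubly transitive (coordinate version). -/
theorem two_trans_of_coord [NeZero n] (hprim : MulAction.IsPreprimitive G Ω)
    (hp : p.Prime) (hk : 2 ≤ k) (hn : n = p * k) {c : G} (he : ∀ x, e (c • x) = e x + 1) :
    MulAction.IsMultiplyPretransitive G Ω 2 := by
  classical
  have : Fact p.Prime := ⟨hp⟩
  rw [MulAction.is_two_pretransitive_iff]
  intro a b x y hab hxy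
  set T := Finset.univ.filter (fun d : ZMod n => ∃ g : G, e (g • b) - e (g • a) = d) with hT
  have htr : ∀ (u v u' v' : Ω), e v - e u = e v' - e u' → ∃ g : G, g • u = u' ∧ g • v = v' := by
    intro u v u' v' h
    refine ⟨c ^ (e u' - e u).val, ?_, ?_⟩
    · apply e.injective
      rw [coord_pow he, ZMod.natCast_zmod_val]; ring
    · apply e.injective
      rw [coord_pow he, ZMod.natCast_zmod_val]
      linear_combination h
  have hTinv : InvSet G e (T : Set (ZMod n)) := by
    apply InvSet.of_imp
    intro g u v huv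
    simp only [hT, Finset.coe_filter, Finset.mem_univ, true_and, Set.mem_ofPred_eq] at huv ⊢
    obtain ⟨h, hh⟩ := huv
    obtain ⟨g', h1, h2⟩ := htr (h • a) (h • b) u v hh
    refine ⟨g * g' * h, ?_⟩
    rw [mul_smul, mul_smul, mul_smul, mul_smul, h1, h2]
  have h0 : (0 : ZMod n) ∉ T := by
    simp only [hT, Finset.mem_filter, Finset.mem_univ, true_and, not_exists]
    intro g hg
    exact hab (MulAction.injective g (e.injective (sub_eq_zero.1 hg))).symm
  have hne : T.Nonempty := ⟨e b - e a, by
    simp only [hT, Finset.mem_filter, Finset.mem_univ, true_and]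
    exact ⟨1, by simp⟩⟩
  have hmem := adm_eq hprim hk hn hTinv h0 hne (e y - e x)
    (fun h => hxy (e.injective (sub_eq_zero.1 h)).symm)
  simp only [hT, Finset.mem_filter, Finset.mem_univ, true_and] at hmem
  obtain ⟨g, hg⟩ := hmem
  obtain ⟨g', h1, h2⟩ := htr (g • a) (g • b) x y hg
  exact ⟨g' * g, by rw [mul_smul, h1], by rw [mul_smul, h2]⟩

/-- coordinates for an element generating a transitive cyclic group -/
theorem exists_coord_of_zpowers [Finite Ω] (c : G)
    (htr : MulAction.IsPretransitive (Subgroup.zpowers c) Ω) (hn : Nat.card Ω = n) (hn0 : n ≠ 0) :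
    ∃ e : Ω ≃ ZMod n, ∀ x, e (c • x) = e x + 1 := by
  classical
  have : NeZero n := ⟨hn0⟩
  have : Nonempty Ω := by
    by_contra h
    rw [not_nonempty_iff] at h
    exact hn0 (by rw [← hn]; simp)
  obtain ⟨a₀⟩ := this
  have : Fintype Ω := Fintype.ofFinite Ω
  have hper : Function.minimalPeriod (c • ·) a₀ = n := by
    rw [MulAction.minimalPeriod_eq_card, ← Nat.card_eq_fintype_card, ← hn,
      MulAction.orbit_eq_univ]
    exact Nat.card_congr (Equiv.Set.univ Ω)
  let φ : ZMod n → Ω := fun j => c ^ j.val • a₀
  have hmod : ∀ m : ℕ, c ^ (m % n) • a₀ = c ^ m • a₀ := by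
    intro m
    have := MulAction.pow_smul_mod_minimalPeriod (a := c) (b := a₀) m
    rwa [hper] at this
  have hsurj : Function.Surjective φ := by
    intro b
    obtain ⟨⟨z, hz⟩, hzb⟩ := MulAction.exists_smul_eq (Subgroup.zpowers c) a₀ b
    obtain ⟨i, rfl⟩ := Subgroup.mem_zpowers_iff.1 hz
    refine ⟨(i : ZMod n), ?_⟩
    change c ^ ((i : ZMod n).val) • a₀ = b
    rw [← hzb]
    change _ = c ^ i • a₀
    have h1 := MulAction.zpow_smul_mod_minimalPeriod (a := c) (b := a₀) i
    rw [hper] at h1
    rw [← h1, ← ZMod.val_intCast, zpow_natCast]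
  have hbij : Function.Bijective φ :=
    (Fintype.bijective_iff_surjective_and_card φ).2
      ⟨hsurj, by rw [ZMod.card, ← hn, Nat.card_eq_fintype_card]⟩
  have hstep : ∀ j : ZMod n, c • φ j = φ (j + 1) := by
    intro j
    change c • c ^ j.val • a₀ = c ^ (j + 1).val • a₀
    rw [ZMod.val_add, ZMod.val_one_eq_one_mod, Nat.add_mod_mod, hmod, ← mul_smul, ← pow_succ']
  refine ⟨(Equiv.ofBijective φ hbij).symm, ?_⟩
  intro x
  obtain ⟨j, rfl⟩ := hsurj x
  rw [hstep]
  have h2 : ∀ j, (Equiv.ofBijective φ hbij).symm (φ j) = j := fun j =>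
    (Equiv.ofBijective φ hbij).symm_apply_apply j
  rw [h2, h2]

/-- **Schur.** A primitive group containing an element generating a transitive cyclic subgroup,
of composite degree, is doubly transitive. -/
theorem schur [Finite Ω] (hprim : MulAction.IsPreprimitive G Ω) (c : G)
    (htr : MulAction.IsPretransitive (Subgroup.zpowers c) Ω)
    (hp : p.Prime) (hk : 2 ≤ k) (hn : Nat.card Ω = p * k) :
    MulAction.IsMultiplyPretransitive G Ω 2 := by
  have hn0 : p * k ≠ 0 := Nat.mul_ne_zero hp.ne_zero (by omega)
  obtain ⟨e, he⟩ := exists_coord_of_zpowers c htr hn hn0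
  have : NeZero (p * k) := ⟨hn0⟩
  exact two_trans_of_coord hprim hp hk rfl he

end Cfsg.Agent.Lib.Helper75Schur
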