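import Mathlib
import Cfsg.Agent.Lib.Helper71ZaDefs
import Cfsg.Agent.Lib.Helper75ZaSYL
import Cfsg.Agent.Lib.Helper11Frobenius
import Cfsg.Agent.Lib.Helper11CyclicTwo

/-!
# Zassenhaus project, piece G1
-/

set_option autoImplicit false

namespace Cfsg.Agent.Lib.Helper75ZaG1

open Cfsg.Agent.Lib.Helper71ZaDefs Cfsg.Agent.Lib.Helper75ZaSYL Subgroup

theorem derivedSeries_eq_top {G : Type*} [Group G] (hperf : commutator G = ⊤) (n : ℕ) :
    derivedSeries G n = ⊤ := by
  induction n with
  | zero => rfl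
  | succ n ih => rw [derivedSeries_succ, ih, ← commutator_def, hperf]

theorem hom_trivial {G S : Type*} [Group G] [Group S] (hperf : commutator G = ⊤)
    (hS : Group.IsSolvable S) (f : G →* S) (g : G) : f g = 1 := by
  obtain ⟨n, hn⟩ := hS.solvable
  have h1 := map_derivedSeries_le_derivedSeries f n
  rw [derivedSeries_eq_top hperf, hn] at h1
  have h2 : f g ∈ (⊤ : Subgroup G).map f := ⟨g, Subgroup.mem_top g, rfl⟩
  exact (Subgroup.mem_bot).1 (h1 h2)

variable {H : Type*} [Group H] [Finite H]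

theorem three_dvd_card (hZ : ZG H) (hperf : commutator H = ⊤) (hne : Nontrivial H) :
    3 ∣ Nat.card H := by
  by_contra h3
  have hF : Cfsg.Agent.Lib.Helper11Frobenius.FrobCond 2 H := by
    intro Q hQ g hg hgp
    obtain ⟨A, hAQ, hc, hidx⟩ := two_subgroup hZ Q hQ
    exact Cfsg.Agent.Lib.Helper11CyclicTwo.cyclic_index_two_aut Q A hQ hAQ hc hidx g
      (Nat.coprime_two_right.1 hgp) (fun h => h3 (h.trans (orderOf_dvd_natCard g))) hg
  obtain ⟨N, hN, hcop, k, hidx⟩ := Cfsg.Agent.Lib.Helper11Frobenius.frobenius hF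
  have hp : IsPGroup 2 (H ⧸ N) := IsPGroup.of_card (n := k) (by rw [← hidx]; rfl)
  have hnil : Group.IsNilpotent (H ⧸ N) := hp.isNilpotent
  have hsol : Group.IsSolvable (H ⧸ N) := inferInstance
  have hNtop : N = ⊤ := by
    rw [eq_top_iff]
    intro g _
    have := hom_trivial hperf hsol (QuotientGroup.mk' N) g
    exact (QuotientGroup.eq_one_iff g).1 this
  rw [hNtop, Subgroup.card_top] at hcop
  have hsolH : Group.IsSolvable H := by
    apply solvable_of_sylow_cyclic
    intro q hq P
    by_cases hq2 : q = 2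
    · subst hq2
      obtain ⟨m, hm⟩ := IsPGroup.iff_card.1 P.isPGroup'
      have h1 : Nat.card P ∣ Nat.card H := Subgroup.card_subgroup_dvd_card _
      have h2 : Nat.card P = 1 := by
        have h4 : (Nat.card P).Coprime 2 := Nat.Coprime.coprime_dvd_left h1 hcop
        rw [hm] at h4 ⊢
        rcases Nat.eq_zero_or_pos m with h5 | h5
        · rw [h5, pow_zero]
        · exfalso
          have h6 : 2 ∣ 2 ^ m := dvd_pow_self 2 h5.ne'
          have := Nat.eq_one_of_dvd_coprimes h4 h6 (dvd_refl 2)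
          omega
      have : Subsingleton P := (Nat.card_eq_one_iff_unique.1 h2).1
      exact isCyclic_of_subsingleton
    · exact sylow_cyclic hZ.cyc q hq2 P
  obtain ⟨a, b, hab⟩ := hne
  have ha := hom_trivial hperf hsolH (MonoidHom.id H) a
  have hb := hom_trivial hperf hsolH (MonoidHom.id H) b
  exact hab (ha.trans hb.symm)

end Cfsg.Agent.Lib.Helper75ZaG1
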