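import Mathlib
import Cfsg.Agent.Lib.Helper71ZaDefs
import Cfsg.Agent.Lib.Helper75ZaSYL
import Cfsg.Agent.Lib.Helper75ZaG1
import Cfsg.Agent.Lib.Helper1UniqInv

/-!
# Zassenhaus project, piece G2
-/

set_option autoImplicit false

namespace Cfsg.Agent.Lib.Helper75ZaG2

open Cfsg.Agent.Lib.Helper71ZaDefs Cfsg.Agent.Lib.Helper75ZaSYL Cfsg.Agent.Lib.Helper75ZaG1 Subgroup

variable {H : Type*} [Group H] [Finite H]

/-- a central element of a perfect group has trivial `P.index`-th power if `P` is cyclic -/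
theorem pow_index_eq_one_of_cyclic (hperf : commutator H = ⊤) (P : Subgroup H) (hP : IsCyclic P)
    (g : H) (hg : g ∈ center H) : g ^ P.index = 1 := by
  let _ : CommGroup P := IsCyclic.commGroup
  have key : ∀ (k : ℕ) (g₀ : H), g₀⁻¹ * g ^ k * g₀ ∈ P → g₀⁻¹ * g ^ k * g₀ = g ^ k := by
    intro k g₀ _
    have h1 : g ^ k ∈ center H := (center H).pow_mem hg k
    rw [mul_assoc, (Subgroup.mem_center_iff.1 h1 g₀).symm, inv_mul_cancel_left]
  have h1 := MonoidHom.transfer_eq_pow (MonoidHom.id P) g key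
  have h2 : MonoidHom.transfer (MonoidHom.id P) g = 1 :=
    hom_trivial hperf inferInstance _ g
  rw [h2] at h1
  exact (congrArg Subtype.val h1).symm

theorem exists_noncomm (hZ : ZG H) (hperf : commutator H = ⊤) (hne : Nontrivial H) :
    ∃ x y : H, orderOf x = 3 ∧ orderOf y = 3 ∧ x * y ≠ y * x := by
  by_contra hcon
  push Not at hcon
  have h3 := three_dvd_card hZ hperf hne
  obtain ⟨x, hx⟩ := exists_prime_orderOf_dvd_card' (G := H) 3 h3
  set T : Subgroup H := closure {y : H | orderOf y = 3} with hT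
  have hTc : IsMulCommutative T := isMulCommutative_closure (fun a ha b hb => hcon a b ha hb)
  have hTcyc : IsCyclic T := hZ.cyc T (fun a ha b hb =>
    congrArg Subtype.val (hTc.is_comm.comm (⟨a, ha⟩ : T) ⟨b, hb⟩))
  have hxT : x ∈ T := subset_closure hx
  have hmem : ∀ y : H, orderOf y = 3 → y ∈ zpowers x := by
    intro y hy
    have hyT : y ∈ T := subset_closure hy
    have h1 : (⟨y, hyT⟩ : T) ∈ zpowers (⟨x, hxT⟩ : T) := by
      apply Cfsg.Agent.Lib.Helper1UniqInv.mem_of_pow_card_eq_one
      rw [Nat.card_zpowers]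
      have h2 : orderOf (⟨x, hxT⟩ : T) = 3 := by
        rw [← hx, ← Subgroup.orderOf_coe]
      rw [h2]
      apply Subtype.ext
      change y ^ 3 = 1
      rw [← hy]
      exact pow_orderOf_eq_one y
    obtain ⟨k, hk⟩ := h1
    exact ⟨k, congrArg Subtype.val hk⟩
  have hnorm : (zpowers x).Normal := by
    constructor
    intro n hn g
    obtain ⟨k, rfl⟩ := hn
    have h1 : g * x * g⁻¹ ∈ zpowers x := by
      apply hmem
      have : g * x * g⁻¹ = MulAut.conj g x := rfl
      rw [this, MulEquiv.orderOf_eq, hx]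
    have h2 : g * x ^ k * g⁻¹ = (g * x * g⁻¹) ^ k := (conj_zpow).symm
    change g * x ^ k * g⁻¹ ∈ zpowers x
    rw [h2]
    exact (zpowers x).zpow_mem h1 k
  have hcent : x ∈ center H := by
    have hsol : Group.IsSolvable (MulAut (zpowers x)) := by
      have e := IsCyclic.mulAutMulEquiv (zpowers x)
      exact Group.isSolvable_of_isSolvable_injective (f := e.toMonoidHom) e.injective
    rw [Subgroup.mem_center_iff]
    intro g
    have h1 := hom_trivial hperf hsol (MulAut.conjNormal (H := zpowers x)) g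
    have h2 : MulAut.conjNormal g (⟨x, mem_zpowers x⟩ : zpowers x) = ⟨x, mem_zpowers x⟩ := by
      rw [h1]; rfl
    have h4 : g * x * g⁻¹ = x := by
      have := congrArg Subtype.val h2
      simpa using this
    have := congrArg (· * g) h4
    simpa [mul_assoc] using this
  let P : Sylow 3 H := default
  have hPc : IsCyclic P := sylow_cyclic hZ.cyc 3 (by norm_num) P
  have h1 := pow_index_eq_one_of_cyclic hperf (P : Subgroup H) hPc x hcent
  have h2 : 3 ∣ (P : Subgroup H).index := by
    have h4 := orderOf_dvd_of_pow_eq_one h1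
    rwa [hx] at h4
  exact P.not_dvd_index h2

end Cfsg.Agent.Lib.Helper75ZaG2
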