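import Mathlib
import Cfsg.Agent.Lib.Helper71ZaDefs

/-!
# Zassenhaus project, piece G3
-/

set_option autoImplicit false

namespace Cfsg.Agent.Lib.Helper75ZaG3

open Cfsg.Agent.Lib.Helper71ZaDefs Subgroup

theorem bin_gen3 {D : Type*} [Group D] [Finite D] (h : Bin D) (S : Set D) (hS : closure S = ⊤)
    (h3 : ∀ s ∈ S, orderOf s = 3) (hna : ∃ a b : D, a * b ≠ b * a) :
    (∃ f : D →* alternatingGroup (Fin 4), Function.Surjective f ∧ Nat.card f.ker = 2) ∨
    (∃ f : D →* alternatingGroup (Fin 5), Function.Surjective f ∧ Nat.card f.ker = 2) := by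
  rcases h with ⟨A, hA, hcomm⟩ | h | ⟨f, hf, -⟩ | h
  · exfalso
    obtain ⟨a, b, hab⟩ := hna
    have htop : A = ⊤ := by
      rcases hA with hA | hA
      · exact Subgroup.index_eq_one.1 hA
      · rw [eq_top_iff, ← hS, Subgroup.closure_le]
        intro s hs
        have h1 : s ^ 3 = 1 := by rw [← h3 s hs]; exact pow_orderOf_eq_one s
        have h2 : (s ^ 2) ^ 2 = s := by
          rw [← pow_mul]
          calc s ^ (2 * 2) = s ^ 3 * s := by rw [← pow_succ]
            _ = s := by rw [h1, one_mul]
        have h4 : s ^ 2 ∈ A := Subgroup.sq_mem_of_index_two hA s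
        rw [SetLike.mem_coe, ← h2]
        exact A.pow_mem h4 2
    exact hab (hcomm a (htop ▸ Subgroup.mem_top a) b (htop ▸ Subgroup.mem_top b))
  · exact Or.inl h
  · exfalso
    have h1 : ∀ d : D, Equiv.Perm.sign (f d) = 1 := by
      intro d
      have hd : d ∈ closure S := hS ▸ Subgroup.mem_top d
      have h2 : closure S ≤ (Equiv.Perm.sign.comp f).ker := by
        rw [Subgroup.closure_le]
        intro s hs
        rw [SetLike.mem_coe, MonoidHom.mem_ker, MonoidHom.comp_apply]
        have h4 : s ^ 3 = 1 := by rw [← h3 s hs]; exact pow_orderOf_eq_one s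
        have h5 : (Equiv.Perm.sign (f s)) ^ 3 = 1 := by
          rw [← map_pow, ← map_pow, h4, map_one, map_one]
        rcases Int.units_eq_one_or (Equiv.Perm.sign (f s)) with h6 | h6
        · exact h6
        · rw [h6] at h5
          exact absurd h5 (by decide)
      exact h2 hd
    obtain ⟨d, hd⟩ := hf (Equiv.swap 0 1)
    have h2 := h1 d
    rw [hd, Equiv.Perm.sign_swap (by decide)] at h2
    exact absurd h2 (by decide)
  · exact Or.inr h

end Cfsg.Agent.Lib.Helper75ZaG3
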