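import Mathlib
import Cfsg.Agent.Lib.Helper76FourGroup
import Cfsg.Agent.S0646

set_option autoImplicit false

/-! Nonabelian 2-groups with a unique involution in generator form, and central extensions of
groups with a cyclic subgroup of index 2. -/

namespace Cfsg.Agent.Lib.Helper76QuatQuot

open Subgroup Cfsg.Agent.Lib.Helper76FourGroup

/-- a nonabelian 2-group with exactly one involution, in generators -/
theorem quat_structure {T : Type*} [Group T] [Finite T] (hT : IsPGroup 2 T)
    (hna : ¬ IsMulCommutative T) (hu : ∃! x : T, orderOf x = 2) :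
    ∃ (k : ℕ) (a b : T), Nat.card T = 2 ^ (k + 3) ∧ orderOf a = 2 ^ (k + 2) ∧ b ∉ zpowers a ∧
      b ^ 2 = a ^ (2 ^ (k + 1)) ∧ b * a * b⁻¹ = a⁻¹ := by
  have hp : Fact (Nat.Prime 2) := ⟨Nat.prime_two⟩
  obtain ⟨t, ht, huniq⟩ := hu
  have hna' : ∃ x y : T, x * y ≠ y * x := by
    by_contra h
    push Not at h
    exact hna (isMulCommutative_iff.mpr h)
  rcases normal_four_or_cyclic_index_le_two hT with ⟨V, hVn, hV4, hVe⟩ | ⟨a₀, -, ha₀i, -⟩
  · exfalso
    obtain ⟨z, u, -, hz2, hz1, hu2, huz, -⟩ := normal_four_structure hT V hV4 hVe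
    have hu1 : u ≠ 1 := by
      rintro rfl
      exact huz (one_mem _)
    have e1 := huniq z (orderOf_eq_prime hz2 hz1)
    have e2 := huniq u (orderOf_eq_prime hu2 hu1)
    exact huz (by rw [e2, ← e1]; exact mem_zpowers z)
  · obtain ⟨x₀, y₀, hxy₀⟩ := hna'
    have hCi : (zpowers a₀).index = 2 := by
      have h0 : (zpowers a₀).index ≠ 0 := Subgroup.index_ne_zero_of_finite
      have h1 : (zpowers a₀).index ≠ 1 := by
        rw [Ne, Subgroup.index_eq_one]
        intro h
        apply hxy₀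
        have hx : x₀ ∈ zpowers a₀ := h ▸ mem_top x₀
        have hy : y₀ ∈ zpowers a₀ := h ▸ mem_top y₀
        obtain ⟨i, rfl⟩ := mem_zpowers_iff.mp hx
        obtain ⟨j, rfl⟩ := mem_zpowers_iff.mp hy
        rw [← zpow_add, add_comm, zpow_add]
      omega
    obtain ⟨m, hm⟩ := IsPGroup.iff_card.mp hT
    have hm3 : 3 ≤ m := by
      by_contra h
      have hm' : m = 0 ∨ m = 1 ∨ m = 2 := by omega
      rcases hm' with rfl | rfl | rfl
      · have := (zpowers a₀).index_dvd_card
        rw [hCi, hm] at this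
        norm_num at this
      · have hc : IsCyclic T := isCyclic_of_prime_card (p := 2) (by rw [hm]; norm_num)
        obtain ⟨g, hg⟩ := hc.exists_generator
        apply hxy₀
        obtain ⟨i, rfl⟩ := mem_zpowers_iff.mp (hg x₀)
        obtain ⟨j, rfl⟩ := mem_zpowers_iff.mp (hg y₀)
        rw [← zpow_add, add_comm, zpow_add]
      · exact hna (IsPGroup.isMulCommutative_of_card_eq_prime_sq hm)
    obtain ⟨k, rfl⟩ : ∃ k, m = k + 3 := ⟨m - 3, by omega⟩
    obtain ⟨a, b, ha, hb, hcases⟩ := Cfsg.Agent.S0646.result (k + 3) (by omega) hm (zpowers a₀)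
      inferInstance hCi ⟨x₀, y₀, hxy₀⟩
    have e1 : k + 3 - 1 = k + 2 := by omega
    have e2 : k + 3 - 2 = k + 1 := by omega
    rw [e1] at ha
    rw [e2] at hcases
    have hb1 : b ≠ 1 := by
      rintro rfl
      exact hb (one_mem _)
    have hbad : b ^ 2 = 1 → False := by
      intro hb2
      have o1 : orderOf (a ^ (2 ^ (k + 1))) = 2 := by
        rw [orderOf_pow_of_dvd (by positivity) (by rw [ha]; exact pow_dvd_pow 2 (by omega)), ha,
          pow_succ 2 (k + 1)]
        exact Nat.mul_div_cancel_left 2 (by positivity)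
      have f1 := huniq b (orderOf_eq_prime hb2 hb1)
      have f2 := huniq _ o1
      exact hb (by rw [f1, ← f2]; exact Subgroup.pow_mem _ (mem_zpowers a) _)
    rcases hcases with ⟨hb2, -⟩ | ⟨hb2, hc⟩ | ⟨-, hb2, -⟩ | ⟨-, hb2, -⟩
    · exact (hbad hb2).elim
    · exact ⟨k, a, b, hm, ha, hb, hb2, hc⟩
    · exact (hbad hb2).elim
    · exact (hbad hb2).elim

/-- preimage of a cyclic subgroup under a central quotient: elements are `x ^ i * n` -/
theorem mem_comap_zpowers {S : Type*} [Group S] (N : Subgroup S) [N.Normal] (x g : S)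
    (hg : (g : S ⧸ N) ∈ zpowers (x : S ⧸ N)) : ∃ (i : ℤ) (c : S), c ∈ N ∧ g = x ^ i * c := by
  obtain ⟨i, hi⟩ := mem_zpowers_iff.mp hg
  rw [← QuotientGroup.mk_zpow, QuotientGroup.eq] at hi
  exact ⟨i, _, hi, by group⟩

/-- a central extension of a group with a cyclic subgroup of index 2 has cyclic commutator
subgroup -/
theorem isCyclic_commutator {S : Type*} [Group S] (N : Subgroup S) [N.Normal]
    (hNc : N ≤ center S) (x : S) (hi : (zpowers (x : S ⧸ N)).index = 2) :
    IsCyclic (commutator S) := by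
  have hAi : ((zpowers (x : S ⧸ N)).comap (QuotientGroup.mk' N)).index = 2 := by
    rw [Subgroup.index_comap_of_surjective _ (QuotientGroup.mk'_surjective _), hi]
  have hAn := Subgroup.normal_of_index_eq_two hAi
  have hdec : ∀ g ∈ (zpowers (x : S ⧸ N)).comap (QuotientGroup.mk' N),
      ∃ (i : ℤ) (c : S), c ∈ N ∧ g = x ^ i * c := fun g hg => mem_comap_zpowers N x g hg
  have hAc : IsMulCommutative ↥((zpowers (x : S ⧸ N)).comap (QuotientGroup.mk' N)) := by
    rw [isMulCommutative_iff]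
    rintro ⟨g, hg⟩ ⟨g', hg'⟩
    obtain ⟨i, c, hc, rfl⟩ := hdec g hg
    obtain ⟨j, d, hd, rfl⟩ := hdec g' hg'
    apply Subtype.ext
    have c1 := Subgroup.mem_center_iff.mp (hNc hc)
    have d1 := Subgroup.mem_center_iff.mp (hNc hd)
    change x ^ i * c * (x ^ j * d) = x ^ j * d * (x ^ i * c)
    calc x ^ i * c * (x ^ j * d) = x ^ i * (c * x ^ j) * d := by group
      _ = x ^ i * (x ^ j * c) * d := by rw [c1]
      _ = (x ^ i * x ^ j) * (c * d) := by group
      _ = (x ^ j * x ^ i) * (d * c) := by rw [← zpow_add, add_comm, zpow_add, c1 d]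
      _ = x ^ j * (x ^ i * d) * c := by group
      _ = x ^ j * (d * x ^ i) * c := by rw [d1]
      _ = x ^ j * d * (x ^ i * c) := by group
  obtain ⟨y, hy⟩ : ∃ y, y ∉ (zpowers (x : S ⧸ N)).comap (QuotientGroup.mk' N) := by
    by_contra h
    push Not at h
    have : (zpowers (x : S ⧸ N)).comap (QuotientGroup.mk' N) = ⊤ := (Subgroup.eq_top_iff' _).mpr h
    rw [this] at hAi
    simp at hAi
  have hsup := Helper79PGroup.sup_zpowers_eq_top_of_index_prime Nat.prime_two hAi hy
  have hr := Helper79PGroup.commMap_range_eq _ hAc y hsup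
  have hxA : x ∈ (zpowers (x : S ⧸ N)).comap (QuotientGroup.mk' N) := mem_zpowers _
  have hle : commutator S ≤ zpowers (x * y * x⁻¹ * y⁻¹) := by
    rw [← hr]
    rintro _ ⟨⟨g, hg⟩, rfl⟩
    obtain ⟨i, c, hc, rfl⟩ := hdec g hg
    have hcA : c ∈ (zpowers (x : S ⧸ N)).comap (QuotientGroup.mk' N) := by
      rw [Subgroup.mem_comap]
      have : QuotientGroup.mk' N c = 1 := by
        rw [QuotientGroup.mk'_apply, QuotientGroup.eq_one_iff]; exact hc
      rw [this]; exact one_mem _
    have e : (⟨x ^ i * c, hg⟩ : ↥((zpowers (x : S ⧸ N)).comap (QuotientGroup.mk' N)))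
        = (⟨x, hxA⟩ : ↥((zpowers (x : S ⧸ N)).comap (QuotientGroup.mk' N))) ^ i * ⟨c, hcA⟩ := by
      apply Subtype.ext
      simp
    rw [e, map_mul, map_zpow]
    have e2 : Helper79PGroup.commMap _ hAc y ⟨c, hcA⟩ = 1 := by
      rw [Helper79PGroup.commMap_apply]
      have c1 := Subgroup.mem_center_iff.mp (hNc hc) y
      change c * y * c⁻¹ * y⁻¹ = 1
      rw [← c1]
      group
    rw [e2, mul_one, Helper79PGroup.commMap_apply]
    exact zpow_mem (mem_zpowers _) i
  have : IsCyclic ↥((commutator S).subgroupOf (zpowers (x * y * x⁻¹ * y⁻¹))) := inferInstance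
  exact (Subgroup.subgroupOfEquivOfLe hle).isCyclic.mp this

end Cfsg.Agent.Lib.Helper76QuatQuot
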