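import Mathlib
import Cfsg.Agent.Lib.Helper11Frobenius

set_option autoImplicit false

namespace Cfsg.Agent.Lib.Helper76SC1

open Subgroup

/-- Frattini step: `Q, B` normal in `M`, the `p'`-elements of `B` and of `N_M(P0)` (`P0` Sylow in `B`)
centralise `Q`; then all `p'`-elements of `M` centralise `Q`. -/
theorem frattini_step {M : Type*} [Group M] [Finite M] {p : ℕ} [Fact p.Prime]
    (Q B : Subgroup M) [Q.Normal] [B.Normal]
    (hB : ∀ b ∈ B, (orderOf b).Coprime p → b ∈ centralizer (Q : Set M))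
    (P0 : Sylow p B)
    (hN : ∀ y ∈ normalizer (((P0 : Subgroup B).map B.subtype : Subgroup M) : Set M),
      (orderOf y).Coprime p → y ∈ centralizer (Q : Set M)) :
    ∀ x : M, (orderOf x).Coprime p → x ∈ centralizer (Q : Set M) := by
  have hp : p.Prime := Fact.out
  obtain ⟨K, hK⟩ : ∃ K : Subgroup M, K = centralizer (Q : Set M) := ⟨_, rfl⟩
  have hKn : K.Normal := by rw [hK]; infer_instance
  rw [← hK] at hB hN ⊢
  have pel : ∀ H : Subgroup M, (∀ y ∈ H, (orderOf y).Coprime p → y ∈ K) →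
      IsPGroup p (H.map (QuotientGroup.mk' K)) := by
    intro H hH
    rintro ⟨_, y, hy, rfl⟩
    obtain ⟨k, m, hm, hkm⟩ := Nat.exists_eq_pow_mul_and_not_dvd (orderOf_pos y).ne' p hp.ne_one
    refine ⟨k, ?_⟩
    apply Subtype.ext
    have h1 : orderOf (y ^ p ^ k) = m := by
      rw [orderOf_pow_of_dvd (pow_ne_zero _ hp.ne_zero) ⟨m, hkm⟩, hkm]
      exact Nat.mul_div_cancel_left _ (pow_pos hp.pos _)
    have h2 : y ^ p ^ k ∈ K := hH _ (H.pow_mem hy _) (by
      rw [h1]; exact ((Nat.Prime.coprime_iff_not_dvd hp).mpr hm).symm)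
    show (QuotientGroup.mk' K y) ^ p ^ k = 1
    rw [← map_pow]
    exact (QuotientGroup.eq_one_iff _).mpr h2
  have h1 := pel _ hN
  have h2 := pel _ hB
  have hn : (B.map (QuotientGroup.mk' K)).Normal :=
    Subgroup.Normal.map inferInstance _ (QuotientGroup.mk'_surjective K)
  have h3 := IsPGroup.to_sup_of_normal_right h1 h2
  rw [← Subgroup.map_sup, Sylow.normalizer_sup_eq_top,
    Subgroup.map_top_of_surjective _ (QuotientGroup.mk'_surjective K)] at h3
  intro x hx
  obtain ⟨k, hk⟩ := h3 ⟨QuotientGroup.mk' K x, Subgroup.mem_top _⟩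
  have hk' : (QuotientGroup.mk' K x) ^ p ^ k = 1 := congrArg Subtype.val hk
  have h4 : orderOf (QuotientGroup.mk' K x) ∣ p ^ k := orderOf_dvd_of_pow_eq_one hk'
  have h5 : orderOf (QuotientGroup.mk' K x) ∣ orderOf x := orderOf_map_dvd _ x
  have h6 : orderOf (QuotientGroup.mk' K x) = 1 :=
    Nat.eq_one_of_dvd_coprimes (Nat.Coprime.pow_right k hx) h5 h4
  exact (QuotientGroup.eq_one_iff _).mp (orderOf_eq_one_iff.mp h6)

end Cfsg.Agent.Lib.Helper76SC1
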