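import Mathlib
import Cfsg.Prelude.Def_TwoFusion
import Cfsg.Agent.Lib.Helper11Frobenius
import Cfsg.Agent.Lib.Helper76SC1

set_option autoImplicit false

namespace Cfsg.Agent.Lib.Helper76SC2

open Subgroup Cfsg.Agent.Lib.Helper11Frobenius

variable {G : Type*} [Group G]

/-- `p'`-elements normalising `Q` centralise `Q`. -/
def Good (p : ℕ) (Q : Subgroup G) : Prop :=
  ∀ g ∈ normalizer (Q : Set G), (orderOf g).Coprime p → g ∈ centralizer (Q : Set G)

theorem good_of_conj {p : ℕ} (a : G) (Q : Subgroup G)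
    (h : Good p (Q.map (MulAut.conj a).toMonoidHom)) : Good p Q := by
  intro g hg hgp
  let f := (MulAut.conj a).toMonoidHom
  have h2 : f g ∈ normalizer ((Q.map f : Subgroup G) : Set G) := le_normalizer_map f ⟨g, hg, rfl⟩
  have h3 : orderOf (f g) = orderOf g := orderOf_injective f (MulAut.conj a).injective g
  have h4 := h _ h2 (by rwa [h3])
  intro x hx
  have h5 := h4 (f x) ⟨x, hx, rfl⟩
  rw [← map_mul, ← map_mul] at h5
  exact (MulAut.conj a).injective h5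

theorem le_normalizer_of_forall {H K : Subgroup G} (h : ∀ q ∈ K, ∀ x ∈ H, q * x * q⁻¹ ∈ H) :
    K ≤ normalizer (H : Set G) := by
  intro q hq
  rw [mem_normalizer_iff]
  intro x
  refine ⟨h q hq x, fun hx => ?_⟩
  have := h q⁻¹ (K.inv_mem hq) _ hx
  simpa [mul_assoc] using this

/-- The stabiliser of the chain `Q ≥ U ≥ 1`. -/
def chainStab (Q U : Subgroup G) : Subgroup G where
  carrier := {b | b ∈ centralizer (U : Set G) ∧ ∀ q ∈ Q, b * q * b⁻¹ * q⁻¹ ∈ U}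
  one_mem' := ⟨one_mem _, fun q _ => by simp⟩
  mul_mem' := by
    rintro a b ⟨ha1, ha2⟩ ⟨hb1, hb2⟩
    refine ⟨mul_mem ha1 hb1, fun q hq => ?_⟩
    have h1 := hb2 q hq
    have h2 : (b * q * b⁻¹ * q⁻¹) * a = a * (b * q * b⁻¹ * q⁻¹) := ha1 _ h1
    have h3 : a * b * q * (a * b)⁻¹ * q⁻¹ = (a * (b * q * b⁻¹ * q⁻¹)) * a⁻¹ * (a * q * a⁻¹ * q⁻¹) := by
      group
    rw [h3, ← h2]
    have h4 : b * q * b⁻¹ * q⁻¹ * a * a⁻¹ = b * q * b⁻¹ * q⁻¹ := by group
    rw [h4]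
    exact U.mul_mem h1 (ha2 q hq)
  inv_mem' := by
    rintro b ⟨hb1, hb2⟩
    refine ⟨inv_mem hb1, fun q hq => ?_⟩
    have h1 := hb2 q hq
    have h2 : (b * q * b⁻¹ * q⁻¹) * b = b * (b * q * b⁻¹ * q⁻¹) := hb1 _ h1
    have h3 : b⁻¹ * q * b⁻¹⁻¹ * q⁻¹ = (b⁻¹ * ((b * q * b⁻¹ * q⁻¹) * b))⁻¹ := by group
    rw [h3, h2]
    have h4 : b⁻¹ * (b * (b * q * b⁻¹ * q⁻¹)) = b * q * b⁻¹ * q⁻¹ := by group
    rw [h4]
    exact U.inv_mem h1

theorem mem_chainStab {Q U : Subgroup G} {b : G} :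
    b ∈ chainStab Q U ↔ b ∈ centralizer (U : Set G) ∧ ∀ q ∈ Q, b * q * b⁻¹ * q⁻¹ ∈ U := Iff.rfl

theorem chainStab_le_normalizer {Q U : Subgroup G} (hU : U ≤ Q) :
    chainStab Q U ≤ normalizer (Q : Set G) := by
  apply le_normalizer_of_forall
  intro b hb q hq
  have h1 := hU (hb.2 q hq)
  have : b * q * b⁻¹ = b * q * b⁻¹ * q⁻¹ * q := by group
  rw [this]
  exact Q.mul_mem h1 hq

theorem chainStab_conj {Q U : Subgroup G} {b m : G} (hb : b ∈ chainStab Q U)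
    (hmQ : m ∈ normalizer (Q : Set G)) (hmU : m ∈ normalizer (U : Set G)) :
    m * b * m⁻¹ ∈ chainStab Q U := by
  refine ⟨?_, ?_⟩
  · intro u hu
    have hu' : m⁻¹ * u * m ∈ U := (mem_normalizer_iff''.mp hmU u).mp hu
    have h1 : (m⁻¹ * u * m) * b = b * (m⁻¹ * u * m) := hb.1 _ hu'
    calc u * (m * b * m⁻¹) = m * ((m⁻¹ * u * m) * b) * m⁻¹ := by group
      _ = m * (b * (m⁻¹ * u * m)) * m⁻¹ := by rw [h1]
      _ = m * b * m⁻¹ * u := by group
  · intro q hq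
    have hq' : m⁻¹ * q * m ∈ Q := (mem_normalizer_iff''.mp hmQ q).mp hq
    have h1 := hb.2 _ hq'
    have h2 := (mem_normalizer_iff.mp hmU _).mp h1
    have h3 : m * b * m⁻¹ * q * (m * b * m⁻¹)⁻¹ * q⁻¹ =
        m * (b * (m⁻¹ * q * m) * b⁻¹ * (m⁻¹ * q * m)⁻¹) * m⁻¹ := by group
    rw [h3]
    exact h2

theorem chainStab_coprime {p : ℕ} [Fact p.Prime] {Q U : Subgroup G} (hUp : IsPGroup p U) {b : G}
    (hb : b ∈ chainStab Q U) (hbp : (orderOf b).Coprime p) : b ∈ centralizer (Q : Set G) := by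
  intro q hq
  obtain ⟨u, hu⟩ : ∃ u, u = b * q * b⁻¹ * q⁻¹ := ⟨_, rfl⟩
  have huU : u ∈ U := hu ▸ hb.2 q hq
  have hub : u * b = b * u := hb.1 u huU
  have hbq : b * q = u * q * b := by rw [hu]; group
  have key : ∀ k : ℕ, b ^ k * q = u ^ k * q * b ^ k := by
    intro k
    induction k with
    | zero => simp
    | succ k ih =>
      have hc : Commute u b := hub
      calc b ^ (k + 1) * q = b ^ k * (b * q) := by rw [pow_succ]; group
        _ = b ^ k * (u * q * b) := by rw [hbq]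
        _ = (b ^ k * u) * q * b := by group
        _ = (u * b ^ k) * q * b := by rw [(hc.pow_right k).eq]
        _ = u * (b ^ k * q) * b := by group
        _ = u * (u ^ k * q * b ^ k) * b := by rw [ih]
        _ = u ^ (k + 1) * q * b ^ (k + 1) := by rw [pow_succ' u, pow_succ b]; group
  have h1 := key (orderOf b)
  rw [pow_orderOf_eq_one, one_mul, mul_one] at h1
  have h2 : u ^ orderOf b = 1 := by
    have : u ^ orderOf b * q = 1 * q := by rw [one_mul]; exact h1.symm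
    exact mul_right_cancel this
  have h3 : orderOf u ∣ orderOf b := orderOf_dvd_of_pow_eq_one h2
  obtain ⟨j, hj⟩ := (IsPGroup.iff_orderOf.mp hUp) ⟨u, huU⟩
  rw [Subgroup.orderOf_mk] at hj
  have h4 : orderOf u = 1 :=
    Nat.eq_one_of_dvd_coprimes (Nat.Coprime.pow_right j hbp) h3 (by rw [hj])
  have h5 : u = 1 := orderOf_eq_one_iff.mp h4
  rw [h5, one_mul] at hbq
  exact hbq.symm

end Cfsg.Agent.Lib.Helper76SC2
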