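import Mathlib
import Cfsg.Prelude.Def_TwoFusion
import Cfsg.Agent.Lib.Helper11Frobenius
import Cfsg.Agent.Lib.Helper76SC1
import Cfsg.Agent.Lib.Helper76SC2

set_option autoImplicit false

namespace Cfsg.Agent.Lib.Helper76SC3

open Subgroup Cfsg.Agent.Lib.Helper11Frobenius Cfsg.Agent.Lib.Helper76SC1 Cfsg.Agent.Lib.Helper76SC2

variable {G : Type*} [Group G] [Finite G] {p : ℕ} [Fact p.Prime]

theorem step (S : Sylow p G) (D : Subgroup G) (hD : Cfsg.IsStronglyClosed D (S : Subgroup G))
    (h : ∀ U : Subgroup G, U ≤ D → D ⊓ centralizer (U : Set G) ≤ U →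
      FrobCond p ↥(normalizer (U : Set G)))
    (Q : Subgroup G) (hQS : Q ≤ S)
    (IH : ∀ R : Subgroup G, IsPGroup p R → Q < R → Good p R) : Good p Q := by
  have hQp : IsPGroup p Q := S.2.to_le hQS
  obtain ⟨U0, hU0⟩ : ∃ U0 : Subgroup G, U0 = Q ⊓ D := ⟨_, rfl⟩
  have hU0Q : U0 ≤ Q := hU0 ▸ inf_le_left
  have hU0D : U0 ≤ D := hU0 ▸ inf_le_right
  have hNU : normalizer (Q : Set G) ≤ normalizer (U0 : Set G) := by
    apply le_normalizer_of_forall
    intro g hg x hx
    rw [hU0] at hx ⊢
    have h1 : g * x * g⁻¹ ∈ Q := (mem_normalizer_iff.mp hg x).mp hx.1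
    exact ⟨h1, hD.2 x hx.2 g (hQS h1)⟩
  by_cases hc : D ⊓ centralizer (U0 : Set G) ≤ U0
  · -- the `D`-centric case
    intro g hg hgp
    have hF := h U0 hU0D hc
    have hgM : g ∈ normalizer (U0 : Set G) := hNU hg
    have h1 := hF (Q.subgroupOf (normalizer (U0 : Set G))) hQp.comap_subtype ⟨g, hgM⟩
      (by
        rw [mem_normalizer_iff]
        intro x
        exact mem_normalizer_iff.mp hg x)
      (by rw [Subgroup.orderOf_mk]; exact hgp)
    intro x hx
    have h2 := h1 ⟨x, hNU (le_normalizer hx)⟩ hx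
    exact congrArg Subtype.val h2
  · -- the other case
    obtain ⟨c, hcC, hcU⟩ := SetLike.not_le_iff_exists.mp hc
    obtain ⟨C1, hC1⟩ : ∃ C1 : Subgroup G, C1 = D ⊓ centralizer (U0 : Set G) := ⟨_, rfl⟩
    rw [← hC1] at hcC
    have hC1S : C1 ≤ S := by rw [hC1]; exact inf_le_left.trans hD.1
    have hQC1 : Q ≤ normalizer (C1 : Set G) := by
      apply le_normalizer_of_forall
      intro q hq x hx
      rw [hC1] at hx ⊢
      refine ⟨hD.2 x hx.1 q ?_, ?_⟩
      · exact mul_mem (mul_mem (hQS hq) (hD.1 hx.1)) (inv_mem (hQS hq))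
      · intro u hu
        have hqN : q ∈ normalizer (U0 : Set G) := hNU (le_normalizer hq)
        have hu' : q⁻¹ * u * q ∈ U0 := (mem_normalizer_iff''.mp hqN u).mp hu
        have h1 : (q⁻¹ * u * q) * x = x * (q⁻¹ * u * q) := hx.2 _ hu'
        calc u * (q * x * q⁻¹) = q * ((q⁻¹ * u * q) * x) * q⁻¹ := by group
          _ = q * (x * (q⁻¹ * u * q)) * q⁻¹ := by rw [h1]
          _ = q * x * q⁻¹ * u := by group
    have hcQ : c ∉ Q := by
      intro hcQ
      apply hcU
      rw [hU0]
      rw [hC1] at hcC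
      exact ⟨hcQ, hcC.1⟩
    have hlt : Q < Q ⊔ C1 := by
      refine lt_of_le_of_ne le_sup_left ?_
      intro he
      apply hcQ
      rw [he]
      exact (le_sup_right : C1 ≤ Q ⊔ C1) hcC
    have hR0p : IsPGroup p (Q ⊔ C1 : Subgroup G) := S.2.to_le (sup_le hQS hC1S)
    obtain ⟨r, hr, hrQ⟩ := SetLike.exists_of_lt (exists_mem_normalizer_not_mem _ Q hR0p hlt)
    have hr1 : r ∈ ((Q ⊔ C1 : Subgroup G) : Set G) := hr.1
    rw [coe_mul_of_left_le_normalizer_right Q C1 hQC1] at hr1
    obtain ⟨q, hq, c', hc', rfl⟩ := Set.mem_mul.mp hr1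
    have hq : q ∈ Q := hq
    have hc' : c' ∈ C1 := hc'
    have hc'N : c' ∈ normalizer (Q : Set G) := by
      have : c' = q⁻¹ * (q * c') := by group
      rw [this]
      exact mul_mem (inv_mem (le_normalizer hq)) hr.2
    have hc'Q : c' ∉ Q := fun hh => hrQ (Q.mul_mem hq hh)
    have hc'B : c' ∈ chainStab Q U0 := by
      rw [hC1] at hc'
      refine ⟨hc'.2, fun x hx => ?_⟩
      rw [hU0]
      constructor
      · exact Q.mul_mem ((mem_normalizer_iff.mp hc'N x).mp hx) (Q.inv_mem hx)
      · have h1 : c' * x * c'⁻¹ * x⁻¹ = c' * (x * c'⁻¹ * x⁻¹) := by group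
        rw [h1]
        refine D.mul_mem hc'.1 (hD.2 _ (D.inv_mem hc'.1) x ?_)
        exact mul_mem (mul_mem (hQS hx) (inv_mem (hD.1 hc'.1))) (inv_mem (hQS hx))
    -- pass to `M = N_G(Q)`
    obtain ⟨M, hM⟩ : ∃ M : Subgroup G, M = normalizer (Q : Set G) := ⟨_, rfl⟩
    have hQM : Q ≤ M := hM ▸ le_normalizer
    have hBM : chainStab Q U0 ≤ M := hM ▸ chainStab_le_normalizer hU0Q
    have hQn : (Q.subgroupOf M).Normal := by rw [hM]; infer_instance
    have hBn : ((chainStab Q U0).subgroupOf M).Normal := by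
      rw [normal_subgroupOf_iff hBM]
      intro b m hb hm
      rw [hM] at hm
      exact chainStab_conj hb hm (hNU hm)
    have hU0p : IsPGroup p U0 := hQp.to_le hU0Q
    have hB : ∀ b ∈ (chainStab Q U0).subgroupOf M, (orderOf b).Coprime p →
        b ∈ centralizer ((Q.subgroupOf M : Subgroup M) : Set M) := by
      intro b hb hbp x hx
      have h1 := chainStab_coprime hU0p (b := (b : G)) hb (by rwa [Subgroup.orderOf_coe])
      exact Subtype.ext (h1 x hx)
    -- a Sylow subgroup of `B` containing `c'`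
    obtain ⟨P0, hP0⟩ := (((S.2.comap_subtype (K := M)).comap_subtype
      (K := (chainStab Q U0).subgroupOf M))).exists_le_sylow
    have hc'P0 : (⟨c', hBM hc'B⟩ : M) ∈ (P0 : Subgroup _).map ((chainStab Q U0).subgroupOf M).subtype := by
      refine ⟨⟨⟨c', hBM hc'B⟩, hc'B⟩, hP0 ?_, rfl⟩
      exact hC1S hc'
    obtain ⟨R', hR'⟩ : ∃ R' : Subgroup M, R' = Q.subgroupOf M ⊔
      (P0 : Subgroup _).map ((chainStab Q U0).subgroupOf M).subtype := ⟨_, rfl⟩
    have hR'p : IsPGroup p R' := by
      rw [hR']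
      exact IsPGroup.to_sup_of_normal_left hQp.comap_subtype (P0.2.map _)
    have hRp : IsPGroup p (R'.map M.subtype) := hR'p.map _
    have hQR : Q < R'.map M.subtype := by
      refine lt_of_le_of_ne ?_ ?_
      · intro x hx
        refine ⟨⟨x, hQM hx⟩, ?_, rfl⟩
        rw [hR']
        exact (le_sup_left : Q.subgroupOf M ≤ _) hx
      · intro he
        apply hc'Q
        rw [he]
        refine ⟨⟨c', hBM hc'B⟩, ?_, rfl⟩
        rw [hR']
        exact (le_sup_right : _ ≤ Q.subgroupOf M ⊔ _) hc'P0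
    have hgood := IH _ hRp hQR
    have hN : ∀ y ∈ normalizer ((((P0 : Subgroup _).map ((chainStab Q U0).subgroupOf M).subtype :
        Subgroup M)) : Set M), (orderOf y).Coprime p →
        y ∈ centralizer ((Q.subgroupOf M : Subgroup M) : Set M) := by
      intro y hy hyp
      have hyR' : y ∈ normalizer (R' : Set M) := by
        rw [mem_normalizer_iff_map_conj_eq] at hy ⊢
        rw [hR', Subgroup.map_sup, hy]
        congr 1
        have : y ∈ normalizer ((Q.subgroupOf M : Subgroup M) : Set M) := by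
          rw [normalizer_eq_top]; exact mem_top _
        exact mem_normalizer_iff_map_conj_eq.mp this
      have h1 : (y : G) ∈ normalizer ((R'.map M.subtype : Subgroup G) : Set G) :=
        le_normalizer_map M.subtype ⟨y, hyR', rfl⟩
      have h2 := hgood _ h1 (by rwa [Subgroup.orderOf_coe])
      intro x hx
      exact Subtype.ext (h2 x (hQR.le hx))
    have hfin := frattini_step (Q.subgroupOf M) ((chainStab Q U0).subgroupOf M) hB P0 hN
    intro g hg hgp
    have hgM : g ∈ M := hM ▸ hg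
    have h1 := hfin ⟨g, hgM⟩ (by rw [Subgroup.orderOf_mk]; exact hgp)
    intro x hx
    exact congrArg Subtype.val (h1 ⟨x, hQM hx⟩ hx)

theorem main (S : Sylow p G) (D : Subgroup G) (hD : Cfsg.IsStronglyClosed D (S : Subgroup G))
    (h : ∀ U : Subgroup G, U ≤ D → D ⊓ centralizer (U : Set G) ≤ U →
      FrobCond p ↥(normalizer (U : Set G))) : FrobCond p G := by
  have key : ∀ (k : ℕ) (Q : Subgroup G), IsPGroup p Q → Nat.card G - Nat.card Q = k → Good p Q := by
    intro k
    induction k using Nat.strong_induction_on with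
    | _ k ih =>
      intro Q hQ hk
      obtain ⟨P', hP'⟩ := hQ.exists_le_sylow
      obtain ⟨a, ha⟩ := MulAction.exists_smul_eq G P' S
      apply good_of_conj a
      have h1 : Q.map (MulAut.conj a).toMonoidHom ≤ (S : Subgroup G) := by
        rintro _ ⟨x, hx, rfl⟩
        have := mem_smul_sylow a P' x (hP' hx)
        rw [ha] at this
        exact this
      have hcard : Nat.card (Q.map (MulAut.conj a).toMonoidHom) = Nat.card Q :=
        Subgroup.card_map_of_injective (MulAut.conj a).injective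
      apply step S D hD h _ h1
      intro R hR hlt
      have h2 := card_lt_of_lt hlt
      rw [hcard] at h2
      have h3 : Nat.card R ≤ Nat.card G := Subgroup.card_le_card_group R
      exact ih (Nat.card G - Nat.card R) (by omega) R hR rfl
  intro Q hQ
  exact key _ Q hQ rfl

end Cfsg.Agent.Lib.Helper76SC3
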