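import Mathlib
import Cfsg.Agent.Lib.Helper44SLDefs
import Cfsg.Agent.Lib.Helper98MinDefs

set_option autoImplicit false
set_option linter.unusedSectionVars false
set_option linter.unusedSimpArgs false

namespace Cfsg.Agent.Lib.Helper76SLupconst

open Matrix Cfsg Cfsg.Agent.Lib.Helper44Wt Cfsg.Agent.Lib.Helper44SLDefs
  Cfsg.Agent.Lib.Helper44P1 Cfsg.Agent.Lib.Helper44GL2 Cfsg.Agent.Lib.Helper98MinDefs

section gen

variable {F : Type*} [Field F] {ι : Type*} [Fintype ι] [DecidableEq ι]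

theorem step {v φ φ' : ι → F} (h : φ ⬝ᵥ v = 0) (h' : φ' ⬝ᵥ v = 0)
    (hs : φ ∉ Submodule.span F {φ' - φ}) :
    ∃ g : SpecialLinearGroup ι F, g * T v φ * g⁻¹ = T v φ' := by
  obtain ⟨x, hx1, hx2⟩ := exists_dual_pair hs
  have hx2' : (φ - φ') ⬝ᵥ x = 0 := by
    rw [dotProduct_comm, ← neg_sub, dotProduct_neg, hx2, neg_zero]
  refine ⟨T x (φ - φ'), ?_⟩
  rw [T_conj_T hx2', sub_dotProduct, h, h', sub_zero, zero_smul, add_zero, dotProduct_comm φ x, hx1,
    one_smul, sub_sub_cancel]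

theorem indep (v w : ι → F) (hv : v ≠ 0) (h : w ∉ Submodule.span F {v}) :
    v ∉ Submodule.span F {w - v} := by
  intro hm
  obtain ⟨c, hc⟩ := Submodule.mem_span_singleton.1 hm
  apply h
  have hc0 : c ≠ 0 := by
    rintro rfl
    rw [zero_smul] at hc
    exact hv hc.symm
  refine Submodule.mem_span_singleton.2 ⟨c⁻¹ * (1 + c), ?_⟩
  have h1 : c • w = (1 + c) • v := by
    rw [smul_sub] at hc
    rw [add_smul, one_smul]
    nth_rewrite 1 [← hc]
    abel
  rw [mul_smul, ← h1, smul_smul, inv_mul_cancel₀ hc0, one_smul]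

theorem T_conj_all (hn : 3 ≤ Fintype.card ι) {v φ φ' : ι → F} (h : φ ⬝ᵥ v = 0) (h' : φ' ⬝ᵥ v = 0)
    (h0 : φ ≠ 0) (h0' : φ' ≠ 0) :
    ∃ g : SpecialLinearGroup ι F, g * T v φ * g⁻¹ = T v φ' := by
  by_cases hs : φ' ∈ Submodule.span F {φ}
  · obtain ⟨b, hb⟩ := Submodule.mem_span_singleton.1 hs
    obtain ⟨i, hi⟩ : ∃ i, φ i ≠ 0 := by
      by_contra hcon
      push Not at hcon
      exact h0 (funext hcon)
    have hb0 : b ≠ 0 := by
      rintro rfl
      rw [zero_smul] at hb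
      exact h0' hb.symm
    have hi' : φ' i ≠ 0 := by
      rw [← hb]
      simpa using ⟨hb0, hi⟩
    obtain ⟨c, hc0, hc1, hc2⟩ := exists_perp2 hn v (Pi.single i (1 : F))
    have hci : c i = 0 := by simpa using hc2
    have hcv : c ⬝ᵥ v = 0 := by rw [dotProduct_comm]; exact hc1
    have n1 : c ∉ Submodule.span F {φ} := by
      intro hm
      obtain ⟨a, ha⟩ := Submodule.mem_span_singleton.1 hm
      have e1 := congrFun ha i
      rw [hci, Pi.smul_apply, smul_eq_mul] at e1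
      rcases mul_eq_zero.1 e1 with e2 | e2
      · rw [e2, zero_smul] at ha
        exact hc0 ha.symm
      · exact hi e2
    have n2 : φ' ∉ Submodule.span F {c} := by
      intro hm
      obtain ⟨a, ha⟩ := Submodule.mem_span_singleton.1 hm
      have e1 := congrFun ha i
      rw [Pi.smul_apply, hci, smul_zero] at e1
      exact hi' e1.symm
    obtain ⟨g1, hg1⟩ := step h hcv (indep φ c h0 n1)
    obtain ⟨g2, hg2⟩ := step hcv h' (indep c φ' hc0 n2)
    refine ⟨g2 * g1, ?_⟩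
    rw [← hg2, ← hg1]
    group
  · exact step h h' (indep φ φ' h0 hs)

end gen

variable {F : Type*} [Field F]

theorem upHom_eq_T (k : ℕ) (c : F) (y : Fin k → F) :
    (upHom (Multiplicative.ofAdd (c, y)) : GG k F) = T e0 (Sum.elim ![0, c] y) := by
  have h : (Sum.elim ![0, c] y : Fin 2 ⊕ Fin k → F) ⬝ᵥ e0 = 0 := by
    simp [e0]
  apply sl_ext
  rw [T_coe h, upHom_apply, uK, pel_coe]
  ext i j
  rcases i with i | i <;> rcases j with j | j
  · fin_cases i <;> fin_cases j <;> simp [tt, e0, vecMulVec_apply, Matrix.one_apply]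
  · fin_cases i <;> simp [rows, e0, vecMulVec_apply, Matrix.one_apply]
  · simp [e0, vecMulVec_apply, Matrix.one_apply]
  · simp [e0, vecMulVec_apply, Matrix.one_apply]

theorem up_const (k : ℕ) (hk : 1 ≤ k) (χ : GG k F → ℂ) (hχ : IsClassFunction (GG k F) χ)
    (a a' : F × (Fin k → F)) (ha : a ≠ 0) (ha' : a' ≠ 0) :
    χ (upHom (Multiplicative.ofAdd a)) = χ (upHom (Multiplicative.ofAdd a')) := by
  obtain ⟨c, y⟩ := a
  obtain ⟨c', y'⟩ := a'
  rw [upHom_eq_T, upHom_eq_T]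
  have hne : ∀ (c : F) (y : Fin k → F), (c, y) ≠ (0 : F × (Fin k → F)) →
      (Sum.elim ![0, c] y : Fin 2 ⊕ Fin k → F) ≠ 0 := by
    intro c y h h0
    apply h
    have e1 : c = 0 := by simpa using congrFun h0 (Sum.inl 1)
    have e2 : y = 0 := by
      funext j
      simpa using congrFun h0 (Sum.inr j)
    rw [e1, e2]; rfl
  have hn : 3 ≤ Fintype.card (Fin 2 ⊕ Fin k) := by
    rw [Fintype.card_sum, Fintype.card_fin, Fintype.card_fin]; omega
  obtain ⟨g, hg⟩ := T_conj_all hn (v := (e0 : Fin 2 ⊕ Fin k → F))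
    (φ := Sum.elim ![0, c] y) (φ' := Sum.elim ![0, c'] y') (by simp [e0]) (by simp [e0])
    (hne c y ha) (hne c' y' ha')
  rw [← hg]
  exact (hχ _ _).symm

end Cfsg.Agent.Lib.Helper76SLupconst
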