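import Mathlib
import Cfsg.Prelude.Def_CaseTheorems
import Cfsg.Agent.Lib.Helper76FourGroup

set_option autoImplicit false

/-! Sectional 2-rank in terms of pairs of subgroups `N ≤ H` with all squares of `H` in `N`. -/

namespace Cfsg.Agent.Lib.Helper76SecRank

open Subgroup Cfsg.Agent.Lib.Helper76FourGroup

theorem card_le_of_sq_mem {S : Type*} [Group S] [Finite S] (k : ℕ)
    (hr : Cfsg.SectionalPRankLE 2 k S)
    (N H : Subgroup S) (hNH : N ≤ H) (hsq : ∀ h ∈ H, h ^ 2 ∈ N) :
    Nat.card H ≤ 2 ^ k * Nat.card N := by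
  have hn : (N.subgroupOf H).Normal := by
    constructor
    rintro ⟨n, hnH⟩ hn ⟨h, hh⟩
    rw [Subgroup.mem_subgroupOf] at hn ⊢
    simp only [Subgroup.coe_mul, InvMemClass.coe_inv] at hn ⊢
    have e : h * n * h⁻¹ = (h * n) ^ 2 * n⁻¹ * (h⁻¹) ^ 2 := by
      simp only [pow_two]; group
    rw [e]
    exact N.mul_mem (N.mul_mem (hsq _ (H.mul_mem hh hnH)) (N.inv_mem hn)) (hsq _ (H.inv_mem hh))
  have hexp : ∀ a : ↥H ⧸ N.subgroupOf H, a ^ 2 = 1 := by
    intro a
    induction a using QuotientGroup.induction_on with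
    | H h =>
      rw [← QuotientGroup.mk_pow, QuotientGroup.eq_one_iff, Subgroup.mem_subgroupOf]
      simpa using hsq h h.2
  have hcomm : ∀ a b : ↥H ⧸ N.subgroupOf H, a * b = b * a := by
    intro a b
    have ha : a⁻¹ = a := by rw [inv_eq_iff_mul_eq_one, ← pow_two]; exact hexp a
    have hb : b⁻¹ = b := by rw [inv_eq_iff_mul_eq_one, ← pow_two]; exact hexp b
    have hab : (a * b)⁻¹ = a * b := by rw [inv_eq_iff_mul_eq_one, ← pow_two]; exact hexp _
    rw [← hab, mul_inv_rev, ha, hb]
  have h := hr H (N.subgroupOf H) ⊤ (by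
    rw [isMulCommutative_iff]
    intro a b
    exact Subtype.ext (hcomm a b)) (fun a _ => hexp a)
  rw [Nat.card_congr Subgroup.topEquiv.toEquiv] at h
  have h3 : Nat.card (↥H ⧸ N.subgroupOf H) = N.relIndex H := rfl
  rw [h3] at h
  have h4 := card_mul_relIndex_le hNH
  rw [← h4, mul_comm]
  exact Nat.mul_le_mul_right _ h

theorem sectional_of_card_le {S : Type*} [Group S] [Finite S] (k : ℕ)
    (h : ∀ N H : Subgroup S, N ≤ H → (∀ h ∈ H, h ^ 2 ∈ N) → Nat.card H ≤ 2 ^ k * Nat.card N) :
    Cfsg.SectionalPRankLE 2 k S := by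
  intro H N hN A _ hAe
  have hNH₁ : N ≤ A.comap (QuotientGroup.mk' N) := by
    intro n hn
    rw [Subgroup.mem_comap, QuotientGroup.mk'_apply, (QuotientGroup.eq_one_iff n).mpr hn]
    exact one_mem _
  have h1 := h (N.map H.subtype) ((A.comap (QuotientGroup.mk' N)).map H.subtype)
    (Subgroup.map_mono hNH₁) (by
      rintro _ ⟨x, hx, rfl⟩
      refine ⟨x ^ 2, ?_, by simp⟩
      have h2 := hAe _ hx
      rw [QuotientGroup.mk'_apply, ← QuotientGroup.mk_pow, QuotientGroup.eq_one_iff] at h2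
      exact h2)
  rw [Subgroup.card_map_of_injective H.subtype_injective,
    Subgroup.card_map_of_injective H.subtype_injective] at h1
  have h2 := card_mul_relIndex_le hNH₁
  have h3 : N.relIndex (A.comap (QuotientGroup.mk' N)) = Nat.card A := by
    have e : (⊥ : Subgroup (↥H ⧸ N)).comap (QuotientGroup.mk' N) = N := by
      ext x
      rw [Subgroup.mem_comap, Subgroup.mem_bot, QuotientGroup.mk'_apply, QuotientGroup.eq_one_iff]
    have e2 := Subgroup.relIndex_comap (⊥ : Subgroup (↥H ⧸ N)) (QuotientGroup.mk' N)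
      (A.comap (QuotientGroup.mk' N))
    rw [e, Subgroup.map_comap_eq_self_of_surjective (QuotientGroup.mk'_surjective N),
      Subgroup.relIndex_bot_left] at e2
    exact e2
  rw [h3] at h2
  rw [← h2, mul_comm (Nat.card N)] at h1
  exact Nat.le_of_mul_le_mul_right h1 Nat.card_pos

theorem sectional_subgroup {S : Type*} [Group S] [Finite S] (k : ℕ)
    (hr : Cfsg.SectionalPRankLE 2 k S) (K : Subgroup S) : Cfsg.SectionalPRankLE 2 k ↥K := by
  apply sectional_of_card_le
  intro N H hNH hsq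
  have h1 := card_le_of_sq_mem k hr (N.map K.subtype) (H.map K.subtype) (Subgroup.map_mono hNH) (by
    rintro _ ⟨x, hx, rfl⟩
    exact ⟨x ^ 2, hsq x hx, by simp⟩)
  rwa [Subgroup.card_map_of_injective K.subtype_injective,
    Subgroup.card_map_of_injective K.subtype_injective] at h1

end Cfsg.Agent.Lib.Helper76SecRank
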