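import Mathlib
import Cfsg.Prelude.Def_Blocks
import Cfsg.Agent.S0969
import Cfsg.Agent.Lib.Helper5Exc4
import Cfsg.Agent.Lib.Helper4Char2
import Cfsg.Agent.Lib.Helper82Cod

set_option autoImplicit false
set_option linter.unusedSectionVars false

/-! Degree counting tools: the number of irreducible characters of a given degree, sums over
characters sorted by degree, vanishing of characters of defect zero, and a column orthogonality
principle. -/

namespace Cfsg.Agent.Lib.Helper77M11a

open Cfsg Subgroup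
open Cfsg.Agent.Lib.Helper81Base Cfsg.Agent.Lib.Helper81BB Cfsg.Agent.Lib.Helper82Linear
  Cfsg.Agent.Lib.Helper5Exc Cfsg.Agent.Lib.Helper5Exc2 Cfsg.Agent.Lib.Helper5Exc3
open scoped ComplexConjugate

variable (G : Type*) [Group G] [Fintype G]

/-- the number of irreducible characters of degree `n`. -/
noncomputable def cnt (n : ℕ) : ℕ :=
  (Finset.univ.filter (fun χ : IrrCharacter G => charDegree (χ : G → ℂ) = n)).card

variable {G}

theorem cnt_ne_zero_iff (n : ℕ) :
    cnt G n ≠ 0 ↔ ∃ χ : IrrCharacter G, charDegree (χ : G → ℂ) = n := by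
  unfold cnt
  rw [Finset.card_ne_zero, Finset.filter_nonempty_iff]
  simp

theorem cnt_eq_zero (n : ℕ) (h : ∀ χ : IrrCharacter G, charDegree (χ : G → ℂ) ≠ n) :
    cnt G n = 0 := by
  by_contra hne
  obtain ⟨χ, hχ⟩ := (cnt_ne_zero_iff n).mp hne
  exact h χ hχ

theorem natCard_eq_cnt (n : ℕ) :
    Nat.card {χ : IrrCharacter G // charDegree (χ : G → ℂ) = n} = cnt G n := by
  classical
  rw [Nat.card_eq_fintype_card, Fintype.card_subtype]
  rfl

theorem sum_filter_deg (D : Finset ℕ) (f : ℕ → ℤ) :
    ∑ χ ∈ Finset.univ.filter (fun χ : IrrCharacter G => charDegree (χ : G → ℂ) ∈ D),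
      f (charDegree (χ : G → ℂ)) = ∑ n ∈ D, (cnt G n : ℤ) * f n := by
  classical
  rw [← Finset.sum_fiberwise_of_maps_to (t := D)
    (g := fun χ : IrrCharacter G => charDegree (χ : G → ℂ))
    (fun χ hχ => (Finset.mem_filter.mp hχ).2)]
  apply Finset.sum_congr rfl
  intro n hn
  rw [Finset.filter_filter]
  have h1 : Finset.univ.filter (fun χ : IrrCharacter G =>
      charDegree (χ : G → ℂ) ∈ D ∧ charDegree (χ : G → ℂ) = n)
      = Finset.univ.filter (fun χ : IrrCharacter G => charDegree (χ : G → ℂ) = n) := by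
    ext χ
    simp only [Finset.mem_filter, Finset.mem_univ, true_and]
    constructor
    · exact fun h => h.2
    · exact fun h => ⟨h ▸ hn, h⟩
  rw [h1, Finset.sum_congr rfl (g := fun _ => f n)
    (fun χ hχ => by rw [(Finset.mem_filter.mp hχ).2]), Finset.sum_const, nsmul_eq_mul]
  rfl

theorem card_filter_deg (D : Finset ℕ) :
    ((Finset.univ.filter (fun χ : IrrCharacter G => charDegree (χ : G → ℂ) ∈ D)).card : ℤ)
      = ∑ n ∈ D, (cnt G n : ℤ) := by
  have h := sum_filter_deg (G := G) D (fun _ => 1)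
  simpa using h

theorem deg_sq_le (χ : IrrCharacter G) : charDegree (χ : G → ℂ) ^ 2 ≤ Nat.card G := by
  rw [← Cfsg.Agent.Lib.Helper82Cod.sum_degree_sq (G := G)]
  exact Finset.single_le_sum (f := fun χ : IrrCharacter G => charDegree (χ : G → ℂ) ^ 2)
    (fun _ _ => Nat.zero_le _) (Finset.mem_univ χ)

/-- characters of `q`-defect zero vanish on `q`-singular elements. -/
theorem vanish (q a m : ℕ) [Fact q.Prime] (hG : Nat.card G = q ^ a * m) (hm : ¬ q ∣ m)
    (χ : IrrCharacter G) (hd : q ^ a ∣ charDegree (χ : G → ℂ)) (g x : G)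
    (hpart : IsPPart q g x) (hx : x ≠ 1) : (χ : G → ℂ) g = 0 := by
  have hq : q.Prime := Fact.out
  obtain ⟨M, hM⟩ := Cfsg.Agent.Lib.Helper81ClassMul.exists_modular hq
  have hm0 : m ≠ 0 := by
    rintro rfl
    exact hm (dvd_zero _)
  have hfac : (Nat.card G).factorization q = a := by
    rw [hG, Nat.factorization_mul (pow_ne_zero _ hq.ne_zero) hm0, Finsupp.add_apply,
      hq.factorization_pow, Finsupp.single_eq_same, Nat.factorization_eq_zero_of_not_dvd hm,
      add_zero]
  have hpos := Cfsg.Agent.Lib.Helper83Char.charDegree_pos χ.2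
  have hdeg : (charDegree (χ : G → ℂ)).factorization q = (⊥ : Subgroup G).index.factorization q := by
    rw [Subgroup.index_bot, hfac]
    apply le_antisymm
    · rw [← hfac]
      exact (Nat.factorization_le_iff_dvd hpos.ne' Nat.card_pos.ne').mpr (charDegree_dvd χ) q
    · exact (hq.pow_dvd_iff_le_factorization hpos.ne').mp hd
  exact (Cfsg.Agent.S0969.result q M hM ⊥ IsPGroup.of_bot bot_le χ hdeg).2 g x hpart
    (by rw [mem_bot]; exact hx)

/-- column orthogonality principle. -/
theorem col_contra (g : G) (hg : g ≠ 1) (l : ℕ) (hl : 1 < l)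
    (h : ∀ χ : IrrCharacter G, χ ≠ irrOne G → (χ : G → ℂ) g = 0 ∨ l ∣ charDegree (χ : G → ℂ)) :
    False := by
  classical
  have horth := Cfsg.Agent.Lib.Helper4Char2.sum_degree_mul g
  rw [if_neg hg, ← Finset.add_sum_erase Finset.univ _ (Finset.mem_univ (irrOne G))] at horth
  have e1 : ∀ χ ∈ Finset.univ.erase (irrOne G), ∃ α : ℂ, IsIntegral ℤ α ∧
      (χ : G → ℂ) 1 * (χ : G → ℂ) g = (l : ℂ) * α := by
    intro χ hχ
    have hχ1 : χ ≠ irrOne G := Finset.ne_of_mem_erase hχ
    rcases h χ hχ1 with h0 | ⟨e, he⟩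
    · exact ⟨0, isIntegral_zero, by rw [h0]; simp⟩
    · refine ⟨(e : ℂ) * (χ : G → ℂ) g, ?_, ?_⟩
      · exact (isIntegral_algebraMap (R := ℤ) (x := (e : ℤ))).mul (irr_integral χ g)
          |> fun h => by simpa using h
      · rw [← charDegree_castC, he]
        push_cast
        ring
  choose! α hα1 hα2 using e1
  rw [Finset.sum_congr rfl hα2, ← Finset.mul_sum] at horth
  apply not_integral_inv l hl (-∑ χ ∈ Finset.univ.erase (irrOne G), α χ)
    (IsIntegral.neg (IsIntegral.sum _ hα1))
  have h11 : ((irrOne G : IrrCharacter G) : G → ℂ) 1 * ((irrOne G : IrrCharacter G) : G → ℂ) g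
      = 1 := by
    simp [irrOne]
  rw [h11] at horth
  linear_combination -horth

theorem cnt_one [IsSimpleGroup G] (hG : ¬ IsMulCommutative G) : cnt G 1 = 1 := by
  classical
  unfold cnt
  rw [Finset.card_eq_one]
  refine ⟨irrOne G, ?_⟩
  ext χ
  simp only [Finset.mem_filter, Finset.mem_univ, true_and, Finset.mem_singleton]
  constructor
  · intro h
    by_contra hne
    exact charDegree_ne_one hG χ hne h
  · rintro rfl
    have h1 : ((charDegree ((irrOne G : IrrCharacter G) : G → ℂ) : ℕ) : ℂ) = 1 := by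
      rw [charDegree_castC]
      simp [irrOne]
    exact_mod_cast h1

end Cfsg.Agent.Lib.Helper77M11a
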