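import Mathlib
import Cfsg.Agent.Lib.Helper77M11a
import Cfsg.Agent.S4441
import Cfsg.Agent.S0960

set_option autoImplicit false
set_option linter.unusedSectionVars false

namespace Cfsg.Agent.Lib.Helper77M11b

open Cfsg Subgroup
open Cfsg.Agent.Lib.Helper81Base Cfsg.Agent.Lib.Helper81BB Cfsg.Agent.Lib.Helper82Linear
  Cfsg.Agent.Lib.Helper5Exc Cfsg.Agent.Lib.Helper5Exc2 Cfsg.Agent.Lib.Helper5Exc3
  Cfsg.Agent.Lib.Helper5Exc4 Cfsg.Agent.Lib.Helper77M11a
open scoped ComplexConjugate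

variable {G : Type*} [Group G] [Fintype G] [IsSimpleGroup G]

theorem not_comm (hG : Nat.card G = 7920) : ¬ IsMulCommutative G := by
  apply Cfsg.Agent.Lib.Helper21Simple.not_comm_of_not_prime
  rw [hG]
  norm_num

theorem deg_dvd (hG : Nat.card G = 7920) (χ : IrrCharacter G) :
    charDegree (χ : G → ℂ) ∣ 7920 := hG ▸ charDegree_dvd χ

theorem deg_le (hG : Nat.card G = 7920) (χ : IrrCharacter G) :
    charDegree (χ : G → ℂ) ≤ 88 := by
  have h := deg_sq_le χ
  rw [hG] at h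
  nlinarith

instance : Fact (Nat.Prime 11) := ⟨by norm_num⟩
instance : Fact (Nat.Prime 5) := ⟨by norm_num⟩

theorem syl11 (hG : Nat.card G = 7920) (P : Sylow 11 G) :
    Nat.card (P : Subgroup G) = 11 ∧
    Nat.card (centralizer ((P : Subgroup G) : Set G)) = 11 ∧
    (centralizer ((P : Subgroup G) : Set G)).relIndex
        (normalizer ((P : Subgroup G) : Set G)) = 5 := by
  have hna := not_comm hG
  obtain ⟨hP, n, m, hn, hn1, hm1, hm, hmn, hcn, hrel⟩ :=
    sylow_setup hna 720 (by rw [hG]) (by norm_num) P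
  have hmul := card_centralizer_mul P
  rw [hrel, hcn, hG] at hmul
  obtain ⟨M, hM⟩ := Cfsg.Agent.Lib.Helper81ClassMul.exists_modular (p := 11) (by norm_num)
  have hm10 : m = 2 ∨ m = 5 ∨ m = 10 := by
    have h1 : m ≤ 10 := Nat.le_of_dvd (by norm_num) hm
    interval_cases m <;> simp_all
  have hC : Nat.card (centralizer ((P : Subgroup G) : Set G)) = 11 := by
    by_contra hC
    obtain ⟨q, c, hq, hq11, hc, hcq⟩ := exists_prime_order_centralizer P hP hC
    apply block_prime_principle hM (by rw [hG]; norm_num) 3 (by norm_num)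
    intro χ hχ hχ1
    have h22 := two_p_le_deg_gen hna hM P hP q hq hq11 c hc hcq χ hχ hχ1
    have hd := deg_dvd hG χ
    have hle := deg_le hG χ
    have hmod := (Cfsg.Agent.S0960.result 11 M hM (by norm_num) P hP m hrel).2 χ hχ
    simp only [Int.ModEq] at hmod
    generalize charDegree (χ : G → ℂ) = d at *
    rcases hm10 with rfl | rfl | rfl <;> interval_cases d <;> omega
  refine ⟨hP, hC, ?_⟩
  rw [hrel]
  rw [hC] at hmul
  rcases hm10 with rfl | rfl | rfl <;> omega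

/-- when `C_G(P) = P` has prime order, characters outside the principal block have degree
divisible by `p`. -/
theorem dvd_of_not_mem {H : Type*} [Group H] [Fintype H] {p : ℕ} [Fact p.Prime]
    {M : Ideal AlgInt} (hM : IsPModular p M) (P : Sylow p H)
    (hP : Nat.card (P : Subgroup H) = p)
    (hC : Nat.card (centralizer ((P : Subgroup H) : Set H)) = p)
    (χ : IrrCharacter H) (hχ : χ ∉ principalBlock M H) : p ∣ charDegree (χ : H → ℂ) := by
  classical
  let _ : Fintype ↥(P : Subgroup H) := Fintype.ofFinite _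
  obtain ⟨k, hk⟩ := sum_res P χ
  rw [sum_split_one, Finset.sum_eq_zero, add_zero, hP] at hk
  · refine ⟨k, ?_⟩
    have h1 : ((charDegree (χ : H → ℂ) : ℕ) : ℂ) = ((p * k : ℕ) : ℂ) := by
      rw [charDegree_castC]
      push_cast
      exact hk
    exact_mod_cast h1
  · intro y _
    split_ifs with hy
    · exact vanish_off_block (bl_of_prime hM P hP) hP hC y hy χ hχ
    · rfl

theorem arith11 (c1 c10 c12 c45 c5 c16 c60 c6 c72 y : ℕ) (ε : ℤ) (hε : ε = 1 ∨ ε = -1)
    (hc1 : c1 = 1)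
    (hy : y = 5 ∨ y = 16 ∨ y = 60 ∨ y = 6 ∨ y = 72)
    (hm : (y : ℤ) % 11 = ε * 5 % 11)
    (z5 : 5 ≠ y → c5 = 0) (z16 : 16 ≠ y → c16 = 0) (z60 : 60 ≠ y → c60 = 0)
    (z6 : 6 ≠ y → c6 = 0) (z72 : 72 ≠ y → c72 = 0)
    (E1 : c1 + c10 + c12 + c45 = 5) (E2 : c5 + c16 + c60 + c6 + c72 = 2)
    (E3 : (c1 : ℤ) - 10 * c10 + 12 * c12 + 45 * c45 = ε * y)
    (E5 : c1 + 100 * c10 + 144 * c12 + 2025 * c45 + 25 * c5 + 256 * c16 + 3600 * c60 + 36 * c6
      + 5184 * c72 ≤ 7920) :
    (c10 = 2 ∧ c12 = 2 ∧ c45 = 0 ∧ c5 = 2 ∧ c16 = 0 ∧ c60 = 0 ∧ c6 = 0 ∧ c72 = 0) ∨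
    (c10 = 3 ∧ c12 = 0 ∧ c45 = 1 ∧ c5 = 0 ∧ c16 = 2 ∧ c60 = 0 ∧ c6 = 0 ∧ c72 = 0) := by
  rcases hy with rfl | rfl | rfl | rfl | rfl <;> rcases hε with rfl | rfl <;>
    simp only [ne_eq, Nat.reduceEqDiff, not_true_eq_false, not_false_eq_true, forall_const,
      IsEmpty.forall_iff] at z5 z16 z60 z6 z72 <;> omega

set_option maxHeartbeats 1000000 in
theorem stage11 (hG : Nat.card G = 7920) :
    (∀ χ : IrrCharacter G, charDegree (χ : G → ℂ) ∈
      ({1, 10, 12, 45, 5, 16, 60, 6, 72, 11, 22, 33, 44, 55, 66, 88} : Finset ℕ)) ∧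
    ((cnt G 10 = 2 ∧ cnt G 12 = 2 ∧ cnt G 45 = 0 ∧ cnt G 5 = 2 ∧ cnt G 16 = 0 ∧ cnt G 60 = 0 ∧
        cnt G 6 = 0 ∧ cnt G 72 = 0) ∨
      (cnt G 10 = 3 ∧ cnt G 12 = 0 ∧ cnt G 45 = 1 ∧ cnt G 5 = 0 ∧ cnt G 16 = 2 ∧ cnt G 60 = 0 ∧
        cnt G 6 = 0 ∧ cnt G 72 = 0)) ∧
    (cnt G 1 + 100 * cnt G 10 + 144 * cnt G 12 + 2025 * cnt G 45 + 25 * cnt G 5 + 256 * cnt G 16
      + 3600 * cnt G 60 + 36 * cnt G 6 + 5184 * cnt G 72 + 121 * cnt G 11 + 484 * cnt G 22
      + 1089 * cnt G 33 + 1936 * cnt G 44 + 3025 * cnt G 55 + 4356 * cnt G 66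
      + 7744 * cnt G 88 = 7920) := by
  classical
  have hna := not_comm hG
  obtain ⟨P⟩ : Nonempty (Sylow 11 G) := inferInstance
  obtain ⟨hP, hC, hrel⟩ := syl11 hG P
  obtain ⟨M, hM⟩ := Cfsg.Agent.Lib.Helper81ClassMul.exists_modular (p := 11) (by norm_num)
  obtain ⟨X, Y, hB, hdisj, hXc, hYc, εX, ε, hX, hε, hY, hYeq, hsum⟩ :=
    Cfsg.Agent.S4441.result 11 M hM (by norm_num) P hP 5 hrel
  obtain ⟨Xf, rfl⟩ : ∃ Xf : Finset (IrrCharacter G), (Xf : Set _) = X :=
    ⟨X.toFinite.toFinset, by simp⟩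
  obtain ⟨Yf, rfl⟩ : ∃ Yf : Finset (IrrCharacter G), (Yf : Set _) = Y :=
    ⟨Y.toFinite.toFinset, by simp⟩
  rw [Nat.card_coe_set_eq, Set.ncard_coe_finset] at hXc hYc
  simp only [Finset.mem_coe] at hX hY hYeq hsum
  have hoff : ∀ χ : IrrCharacter G, χ ∉ Xf → χ ∉ Yf → 11 ∣ charDegree (χ : G → ℂ) := by
    intro χ h1 h2
    apply dvd_of_not_mem hM P hP hC
    rw [hB]
    simp [h1, h2]
  have hXd : ∀ χ ∈ Xf, charDegree (χ : G → ℂ) ∈ ({1, 10, 12, 45} : Finset ℕ) ∧
      εX χ * (charDegree (χ : G → ℂ) : ℤ) =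
        (fun n : ℕ => if n = 10 then (-10 : ℤ) else (n : ℤ)) (charDegree (χ : G → ℂ)) := by
    intro χ hχ
    obtain ⟨h1, h2, -⟩ := hX χ hχ
    have hd := deg_dvd hG χ
    have hle := deg_le hG χ
    simp only [Int.ModEq] at h2
    generalize charDegree (χ : G → ℂ) = d at *
    generalize εX χ = s at *
    rcases h1 with rfl | rfl <;> interval_cases d <;> first | omega | simp
  have hYd : ∀ χ ∈ Yf, charDegree (χ : G → ℂ) ∈ ({5, 16, 60, 6, 72} : Finset ℕ) := by
    intro χ hχ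
    have h2 := hY χ hχ
    have hd := deg_dvd hG χ
    have hle := deg_le hG χ
    simp only [Int.ModEq] at h2
    generalize charDegree (χ : G → ℂ) = d at *
    rcases hε with rfl | rfl <;> interval_cases d <;> first | omega | simp
  have hZd : ∀ χ : IrrCharacter G, χ ∉ Xf → χ ∉ Yf →
      charDegree (χ : G → ℂ) ∈ ({11, 22, 33, 44, 55, 66, 88} : Finset ℕ) := by
    intro χ h1 h2
    have h3 := hoff χ h1 h2
    have hd := deg_dvd hG χ
    have hle := deg_le hG χ
    generalize charDegree (χ : G → ℂ) = d at *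
    interval_cases d <;> first | omega | simp
  have hall : ∀ χ : IrrCharacter G, charDegree (χ : G → ℂ) ∈
      ({1, 10, 12, 45, 5, 16, 60, 6, 72, 11, 22, 33, 44, 55, 66, 88} : Finset ℕ) := by
    intro χ
    by_cases h1 : χ ∈ Xf
    · have := (hXd χ h1).1
      simp only [Finset.mem_insert, Finset.mem_singleton] at this ⊢
      omega
    · by_cases h2 : χ ∈ Yf
      · have := hYd χ h2
        simp only [Finset.mem_insert, Finset.mem_singleton] at this ⊢
        omega
      · have := hZd χ h1 h2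
        simp only [Finset.mem_insert, Finset.mem_singleton] at this ⊢
        omega
  have hXeq : Xf = Finset.univ.filter (fun χ : IrrCharacter G =>
      charDegree (χ : G → ℂ) ∈ ({1, 10, 12, 45} : Finset ℕ)) := by
    ext χ
    simp only [Finset.mem_filter, Finset.mem_univ, true_and]
    constructor
    · exact fun h => (hXd χ h).1
    · intro h
      by_contra h1
      by_cases h2 : χ ∈ Yf
      · have := hYd χ h2
        simp only [Finset.mem_insert, Finset.mem_singleton] at this h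
        omega
      · have := hZd χ h1 h2
        simp only [Finset.mem_insert, Finset.mem_singleton] at this h
        omega
  have hYeq' : Yf = Finset.univ.filter (fun χ : IrrCharacter G =>
      charDegree (χ : G → ℂ) ∈ ({5, 16, 60, 6, 72} : Finset ℕ)) := by
    ext χ
    simp only [Finset.mem_filter, Finset.mem_univ, true_and]
    constructor
    · exact fun h => hYd χ h
    · intro h
      by_contra h2
      by_cases h1 : χ ∈ Xf
      · have := (hXd χ h1).1
        simp only [Finset.mem_insert, Finset.mem_singleton] at this h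
        omega
      · have := hZd χ h1 h2
        simp only [Finset.mem_insert, Finset.mem_singleton] at this h
        omega
  have E1 := card_filter_deg (G := G) ({1, 10, 12, 45} : Finset ℕ)
  rw [← hXeq, hXc] at E1
  have E2 := card_filter_deg (G := G) ({5, 16, 60, 6, 72} : Finset ℕ)
  rw [← hYeq', hYc] at E2
  have E5 := sum_filter_deg (G := G)
    ({1, 10, 12, 45, 5, 16, 60, 6, 72, 11, 22, 33, 44, 55, 66, 88} : Finset ℕ)
    (fun n => (n : ℤ) ^ 2)
  rw [Finset.filter_true_of_mem (fun χ _ => hall χ)] at E5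
  have hsq : ∑ χ : IrrCharacter G, ((charDegree (χ : G → ℂ) : ℕ) : ℤ) ^ 2 = 7920 := by
    have := Cfsg.Agent.Lib.Helper82Cod.sum_degree_sq (G := G)
    rw [hG] at this
    exact_mod_cast this
  rw [hsq] at E5
  have hYne : Yf.Nonempty := by
    rw [← Finset.card_pos, hYc]
    norm_num
  obtain ⟨θ, hθ⟩ := hYne
  have hreg1 : ¬ 11 ∣ orderOf (1 : G) := by
    rw [orderOf_one]; norm_num
  have hYdeg : ∀ θ' ∈ Yf, charDegree (θ' : G → ℂ) = charDegree (θ : G → ℂ) := by
    intro θ' hθ'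
    have h1 := hYeq θ' hθ' θ hθ 1 hreg1
    rw [← charDegree_castC, ← charDegree_castC] at h1
    exact_mod_cast h1
  have E3 : ∑ χ ∈ Xf, εX χ * (charDegree (χ : G → ℂ) : ℤ) = ε * (charDegree (θ : G → ℂ) : ℤ) := by
    have h1 := hsum θ hθ 1 hreg1
    rw [finsum_mem_finset_eq_sum, ← charDegree_castC] at h1
    have h2 : ((ε * (charDegree (θ : G → ℂ) : ℤ) : ℤ) : ℂ)
        = ((∑ χ ∈ Xf, εX χ * (charDegree (χ : G → ℂ) : ℤ) : ℤ) : ℂ) := by
      push_cast
      rw [h1]
      apply Finset.sum_congr rfl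
      intro χ _
      rw [← charDegree_castC]
    exact_mod_cast h2.symm
  rw [Finset.sum_congr rfl (fun χ hχ => (hXd χ hχ).2), hXeq,
    sum_filter_deg (G := G) ({1, 10, 12, 45} : Finset ℕ)
      (fun n : ℕ => if n = 10 then (-10 : ℤ) else (n : ℤ))] at E3
  have hzero : ∀ n ∈ ({5, 16, 60, 6, 72} : Finset ℕ), n ≠ charDegree (θ : G → ℂ) →
      cnt G n = 0 := by
    intro n hn hne
    apply cnt_eq_zero
    intro χ hχ
    apply hne
    rw [← hχ]
    apply hYdeg
    rw [hYeq']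
    simp only [Finset.mem_filter, Finset.mem_univ, true_and]
    rw [hχ]
    exact hn
  have hc1 := cnt_one hna
  have hθd := hYd θ hθ
  have hθm := hY θ hθ
  simp only [Int.ModEq] at hθm
  generalize charDegree (θ : G → ℂ) = y at *
  have z5 := hzero 5 (by simp)
  have z16 := hzero 16 (by simp)
  have z60 := hzero 60 (by simp)
  have z6 := hzero 6 (by simp)
  have z72 := hzero 72 (by simp)
  norm_num [Finset.sum_insert] at E1 E2 E3 E5
  refine ⟨hall, ?_, by omega⟩
  simp only [Finset.mem_insert, Finset.mem_singleton] at hθd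
  exact arith11 (cnt G 1) (cnt G 10) (cnt G 12) (cnt G 45) (cnt G 5) (cnt G 16) (cnt G 60)
    (cnt G 6) (cnt G 72) y ε hε hc1 hθd hθm z5 z16 z60 z6 z72 (by omega) (by omega)
    (by linarith) (by omega)

theorem ppart_left {H : Type*} [Group H] (p : ℕ) (z c : H) (hcomm : Commute z c)
    (hz : orderOf z = p) (hc : ¬ p ∣ orderOf c) : IsPPart p (z * c) z :=
  ⟨c, rfl, hcomm, ⟨1, by rw [hz, pow_one]⟩, hc⟩

theorem ppart_right {H : Type*} [Group H] (q : ℕ) (z c : H) (hcomm : Commute z c)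
    (hc : orderOf c = q) (hz : ¬ q ∣ orderOf z) : IsPPart q (z * c) c :=
  ⟨z, hcomm.eq.symm, hcomm.symm, ⟨1, by rw [hc, pow_one]⟩, hz⟩

theorem arith5 (K m n : ℕ) (hmul : K * m * n = 7920) (hn : n % 5 = 1) (hm : m ∣ 4) (hm1 : m ≠ 1)
    (h2 : ¬ 2 ∣ K) (h11 : ¬ 11 ∣ K) : K = 5 ∧ m = 4 := by
  have hK : K ∣ 176 * 45 := ⟨m * n, by rw [← mul_assoc, hmul]⟩
  have hcop : Nat.Coprime K 176 := by
    have e : (176 : ℕ) = 2 ^ 4 * 11 := by norm_num
    rw [e]
    apply Nat.Coprime.mul_right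
    · exact Nat.Coprime.pow_right 4 ((Nat.Prime.coprime_iff_not_dvd Nat.prime_two).mpr h2).symm
    · exact ((Nat.Prime.coprime_iff_not_dvd (by norm_num)).mpr h11).symm
  have hK45 : K ∣ 45 := hcop.dvd_of_dvd_mul_left hK
  have hKle : K ≤ 45 := Nat.le_of_dvd (by norm_num) hK45
  have hmle : m ≤ 4 := Nat.le_of_dvd (by norm_num) hm
  have hK0 : 0 < K := Nat.pos_of_dvd_of_pos hK45 (by norm_num)
  interval_cases m
  · omega
  · omega
  · interval_cases K <;> omega
  · omega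
  · interval_cases K <;> omega

set_option maxHeartbeats 1000000 in
theorem syl5 (hG : Nat.card G = 7920) (Q : Sylow 5 G) :
    Nat.card (Q : Subgroup G) = 5 ∧
    Nat.card (centralizer ((Q : Subgroup G) : Set G)) = 5 ∧
    (centralizer ((Q : Subgroup G) : Set G)).relIndex
        (normalizer ((Q : Subgroup G) : Set G)) = 4 := by
  classical
  have hna := not_comm hG
  obtain ⟨hall, hAB, -⟩ := stage11 hG
  obtain ⟨hQ, n, m, hn, hn1, hm1, hm, hmn, hcn, hrel⟩ :=
    sylow_setup hna 1584 (by rw [hG]) (by norm_num) Q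
  have hmul := card_centralizer_mul Q
  rw [hrel, hcn, hG] at hmul
  have hr1 : 1 < Nat.card ↥(Q : Subgroup G) := by rw [hQ]; norm_num
  have : Nontrivial ↥(Q : Subgroup G) := Finite.one_lt_card_iff_nontrivial.mp hr1
  obtain ⟨z, hz⟩ := exists_ne (1 : ↥(Q : Subgroup G))
  have hz1 : (z : G) ≠ 1 := fun h1 => hz (Subtype.ext h1)
  have hoz : orderOf (z : G) = 5 := by
    have h1 := orderOf_dvd_natCard z
    rw [hQ, ← Subgroup.orderOf_coe] at h1
    rcases (Nat.dvd_prime (by norm_num)).mp h1 with h | h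
    · exact absurd (orderOf_eq_one_iff.mp h) hz1
    · exact h
  have hv5 : ∀ (χ : IrrCharacter G) (c : G), Commute (z : G) c → ¬ 5 ∣ orderOf c →
      5 ∣ charDegree (χ : G → ℂ) → (χ : G → ℂ) ((z : G) * c) = 0 := by
    intro χ c hcomm hc hd
    exact vanish 5 1 1584 (by rw [hG]; norm_num) (by norm_num) χ (by simpa using hd) _ _
      (ppart_left 5 (z : G) c hcomm hoz hc) hz1
  have h11 : ¬ 11 ∣ Nat.card (centralizer ((Q : Subgroup G) : Set G)) := by
    intro hd
    obtain ⟨c, hc⟩ := exists_prime_orderOf_dvd_card' 11 hd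
    rw [← Subgroup.orderOf_coe] at hc
    have hcomm : Commute (z : G) (c : G) := (mem_centralizer_iff.mp c.2 z z.2)
    have hg : (z : G) * c ≠ 1 := by
      intro h
      have h1 : (c : G) = (z : G)⁻¹ := (eq_inv_of_mul_eq_one_right h)
      rw [h1, orderOf_inv, hoz] at hc
      omega
    apply col_contra _ hg 2 (by norm_num)
    intro χ hχ
    have h1 := hall χ
    have h2 := charDegree_ne_one hna χ hχ
    by_cases h5 : 5 ∣ charDegree (χ : G → ℂ)
    · exact Or.inl (hv5 χ c hcomm (by rw [hc]; norm_num) h5)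
    · by_cases h11 : 11 ∣ charDegree (χ : G → ℂ)
      · left
        exact vanish 11 1 720 (by rw [hG]; norm_num) (by norm_num) χ (by simpa using h11) _ _
          (ppart_right 11 (z : G) (c : G) hcomm hc (by rw [hoz]; norm_num))
          (fun h => by rw [h, orderOf_one] at hc; omega)
      · right
        simp only [Finset.mem_insert, Finset.mem_singleton] at h1
        omega
  have h2 : ¬ 2 ∣ Nat.card (centralizer ((Q : Subgroup G) : Set G)) := by
    intro hd
    obtain ⟨c, hc⟩ := exists_prime_orderOf_dvd_card' 2 hd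
    rw [← Subgroup.orderOf_coe] at hc
    have hcomm : Commute (z : G) (c : G) := (mem_centralizer_iff.mp c.2 z z.2)
    have hc1 : (c : G) ≠ 1 := fun h => by rw [h, orderOf_one] at hc; omega
    have hcc : (c : G) * c = 1 := by
      rw [← pow_two, ← hc]
      exact pow_orderOf_eq_one _
    have hg : (z : G) * c ≠ 1 := by
      intro h
      have h1 : (c : G) = (z : G)⁻¹ := (eq_inv_of_mul_eq_one_right h)
      rw [h1, orderOf_inv, hoz] at hc
      omega
    rcases hAB with ⟨-, -, -, hA, -⟩ | ⟨-, hB12, -, hB5, -, hB60, hB6, hB72⟩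
    · obtain ⟨θ, hθ⟩ := (cnt_ne_zero_iff (G := G) 5).mp (by rw [hA]; norm_num)
      have hθ1 : θ ≠ irrOne G := by
        rintro rfl
        have h1 : ((charDegree ((irrOne G : IrrCharacter G) : G → ℂ) : ℕ) : ℂ) = 1 := by
          rw [charDegree_castC]
          simp [irrOne]
        have h2 : charDegree ((irrOne G : IrrCharacter G) : G → ℂ) = 1 := by exact_mod_cast h1
        omega
      obtain ⟨b, hb0, hbe, hb5, hb⟩ := inv_lemma hna θ hθ1 c hcc hc1
      obtain ⟨k, hk⟩ := two_card_dvd θ (Q : Subgroup G) c hcc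
        (fun y hy => (mem_centralizer_iff.mp c.2 y hy).symm) (by
          intro y hy hy1
          have hoy : orderOf y = 5 := by
            have h1 := orderOf_dvd_natCard (⟨y, hy⟩ : (Q : Subgroup G))
            rw [hQ, ← Subgroup.orderOf_coe] at h1
            rcases (Nat.dvd_prime (by norm_num)).mp h1 with h | h
            · exact absurd (orderOf_eq_one_iff.mp h) hy1
            · exact h
          have hcy : Commute y (c : G) := (mem_centralizer_iff.mp c.2 y hy)
          rw [vanish 5 1 1584 (by rw [hG]; norm_num) (by norm_num) θ (by rw [hθ]; norm_num) _ _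
            (ppart_left 5 y (c : G) hcy hoy (by rw [hc]; norm_num)) hy1]
          have h3 := vanish 5 1 1584 (by rw [hG]; norm_num) (by norm_num) θ (by rw [hθ]; norm_num) _ _
            (ppart_left 5 y 1 (Commute.one_right y) hoy (by rw [orderOf_one]; norm_num)) hy1
          rw [mul_one] at h3
          exact h3.symm)
      rw [hb, ← charDegree_castC, hθ, hQ] at hk
      have h4 : (2 * b : ℕ) = 2 * 5 * k := by
        have : ((2 * b : ℕ) : ℂ) = ((2 * 5 * k : ℕ) : ℂ) := by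
          push_cast
          linear_combination hk
        exact_mod_cast this
      rw [hθ] at hb5
      obtain ⟨r, hr⟩ := hbe
      omega
    · apply col_contra _ hg 11 (by norm_num)
      intro χ hχ
      have h1 := hall χ
      have h2 := charDegree_ne_one hna χ hχ
      by_cases h5 : 5 ∣ charDegree (χ : G → ℂ)
      · exact Or.inl (hv5 χ c hcomm (by rw [hc]; norm_num) h5)
      · by_cases h16 : charDegree (χ : G → ℂ) = 16
        · left
          exact vanish 2 4 495 (by rw [hG]; norm_num) (by norm_num) χ (by rw [h16]; norm_num) _ _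
            (ppart_right 2 (z : G) (c : G) hcomm hc (by rw [hoz]; norm_num)) hc1
        · right
          have n12 : charDegree (χ : G → ℂ) ≠ 12 := fun h =>
            (cnt_ne_zero_iff (G := G) 12).mpr ⟨χ, h⟩ hB12
          have n6 : charDegree (χ : G → ℂ) ≠ 6 := fun h =>
            (cnt_ne_zero_iff (G := G) 6).mpr ⟨χ, h⟩ hB6
          have n72 : charDegree (χ : G → ℂ) ≠ 72 := fun h =>
            (cnt_ne_zero_iff (G := G) 72).mpr ⟨χ, h⟩ hB72
          simp only [Finset.mem_insert, Finset.mem_singleton] at h1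
          omega
  obtain ⟨hK, hm4⟩ := arith5 _ m n hmul hn hm hm1 h2 h11
  exact ⟨hQ, hK, by rw [hrel, hm4]⟩

theorem arithF (c1 c10 c12 c45 c5 c16 c60 c6 c72 c11 c22 c33 c44 c55 c66 c88 : ℕ)
    (hAB : (c10 = 2 ∧ c12 = 2 ∧ c45 = 0 ∧ c5 = 2 ∧ c16 = 0 ∧ c60 = 0 ∧ c6 = 0 ∧ c72 = 0) ∨
    (c10 = 3 ∧ c12 = 0 ∧ c45 = 1 ∧ c5 = 0 ∧ c16 = 2 ∧ c60 = 0 ∧ c6 = 0 ∧ c72 = 0))
    (hsq : c1 + 100 * c10 + 144 * c12 + 2025 * c45 + 25 * c5 + 256 * c16
      + 3600 * c60 + 36 * c6 + 5184 * c72 + 121 * c11 + 484 * c22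
      + 1089 * c33 + 1936 * c44 + 3025 * c55 + 4356 * c66
      + 7744 * c88 = 7920)
    (hc1 : c1 = 1) (z12 : c12 = 0) (z72 : c72 = 0) (z22 : c22 = 0) (z33 : c33 = 0) (z88 : c88 = 0)
    (F1 : c1 + c12 + c16 + c6 + c72 + c11 + c22 + c33 + c44 + c66 + c88 = 5) :
    c1 = 1 ∧ c10 = 3 ∧ c12 = 0 ∧ c45 = 1 ∧ c5 = 0 ∧ c16 = 2 ∧
    c60 = 0 ∧ c6 = 0 ∧ c72 = 0 ∧ c11 = 1 ∧ c22 = 0 ∧ c33 = 0 ∧
    c44 = 1 ∧ c55 = 1 ∧ c66 = 0 ∧ c88 = 0 := by
  rcases hAB with ⟨-, h, -⟩ | ⟨h10, h12, h45, h5, h16, h60, h6, h72⟩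
  · omega
  · subst hc1 h10 h12 h45 h5 h16 h60 h6 h72 z22 z33 z88
    have h1 : c11 + c44 + c66 = 2 := by omega
    have h2 : c11 + 16 * c44 + 25 * c55 + 36 * c66 = 42 := by omega
    have h3 : c11 ≤ 2 := by omega
    have h4 : c44 ≤ 2 := by omega
    interval_cases c11 <;> interval_cases c44 <;> omega

set_option maxHeartbeats 1000000 in
theorem degrees (hG : Nat.card G = 7920) :
    (∀ χ : IrrCharacter G, charDegree (χ : G → ℂ) ∈
      ({1, 10, 12, 45, 5, 16, 60, 6, 72, 11, 22, 33, 44, 55, 66, 88} : Finset ℕ)) ∧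
    cnt G 1 = 1 ∧ cnt G 10 = 3 ∧ cnt G 12 = 0 ∧ cnt G 45 = 1 ∧ cnt G 5 = 0 ∧ cnt G 16 = 2 ∧
    cnt G 60 = 0 ∧ cnt G 6 = 0 ∧ cnt G 72 = 0 ∧ cnt G 11 = 1 ∧ cnt G 22 = 0 ∧ cnt G 33 = 0 ∧
    cnt G 44 = 1 ∧ cnt G 55 = 1 ∧ cnt G 66 = 0 ∧ cnt G 88 = 0 := by
  classical
  have hna := not_comm hG
  obtain ⟨hall, hAB, hsq⟩ := stage11 hG
  obtain ⟨Q⟩ : Nonempty (Sylow 5 G) := inferInstance
  obtain ⟨hQ, hK, hrel⟩ := syl5 hG Q
  obtain ⟨M, hM⟩ := Cfsg.Agent.Lib.Helper81ClassMul.exists_modular (p := 5) (by norm_num)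
  obtain ⟨hcard, hmod⟩ := Cfsg.Agent.S0960.result 5 M hM (by norm_num) Q hQ 4 hrel
  have hmem : ∀ χ : IrrCharacter G, ¬ 5 ∣ charDegree (χ : G → ℂ) → χ ∈ principalBlock M G := by
    intro χ h
    by_contra h1
    exact h (dvd_of_not_mem hM Q hQ hK χ h1)
  have hBeq : principalBlock M G = ((Finset.univ.filter (fun χ : IrrCharacter G =>
      charDegree (χ : G → ℂ) ∈ ({1, 12, 16, 6, 72, 11, 22, 33, 44, 66, 88} : Finset ℕ)) :
        Finset (IrrCharacter G)) : Set (IrrCharacter G)) := by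
    ext χ
    simp only [Finset.coe_filter, Finset.mem_univ, true_and, Set.mem_ofPred_eq]
    constructor
    · intro h
      have h1 := not_dvd_deg hM Q hQ χ h
      have h2 := hall χ
      simp only [Finset.mem_insert, Finset.mem_singleton] at h2 ⊢
      omega
    · intro h
      apply hmem
      simp only [Finset.mem_insert, Finset.mem_singleton] at h
      omega
  rw [hBeq, Nat.card_coe_set_eq, Set.ncard_coe_finset] at hcard
  have F1 := card_filter_deg (G := G) ({1, 12, 16, 6, 72, 11, 22, 33, 44, 66, 88} : Finset ℕ)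
  rw [hcard] at F1
  have hz : ∀ n : ℕ, n % 5 = 2 ∨ n % 5 = 3 → cnt G n = 0 := by
    intro n hn
    apply cnt_eq_zero
    intro χ hχ
    have h1 := hmod χ (hmem χ (by rw [hχ]; omega))
    rw [hχ] at h1
    simp only [Int.ModEq] at h1
    omega
  have z12 := hz 12 (by norm_num)
  have z72 := hz 72 (by norm_num)
  have z22 := hz 22 (by norm_num)
  have z33 := hz 33 (by norm_num)
  have z88 := hz 88 (by norm_num)
  have hc1 := cnt_one hna
  norm_num [Finset.sum_insert] at F1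
  refine ⟨hall, ?_⟩
  exact arithF _ _ _ _ _ _ _ _ _ _ _ _ _ _ _ _ hAB hsq hc1 z12 z72 z22 z33 z88 (by omega)

end Cfsg.Agent.Lib.Helper77M11b
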