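import Mathlib
import Cfsg.Prelude.Def_Characters
import Cfsg.Agent.Lib.Helper77Rel1

set_option autoImplicit false

/-!
# Relative Glauberman correspondence: Gallagher parametrisation and the invariant case
-/

namespace Cfsg.Agent.Lib.Helper77Rel2

open Module Representation
open scoped ComplexConjugate
open Cfsg.Agent.Lib.Helper4Eigen Cfsg.Agent.Lib.Helper4Char Cfsg.Agent.Lib.Helper4Char2
  Cfsg.Agent.Lib.Helper4Char3 Cfsg.Agent.Lib.Helper4Char4 Cfsg.Agent.Lib.Helper4Perm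
  Cfsg.Agent.Lib.Helper77Glaub Cfsg.Agent.Lib.Helper77Glaub2 Cfsg.Agent.Lib.Helper77Glaub3
  Cfsg.Agent.Lib.Helper77Rel1

section Gal

variable {X Q Xb : Type*} [Group X] [Group Q] [Group Xb] [Fintype X] [Fintype Q] [Fintype Xb]
  (jX : Q →* X) (hj : Function.Injective jX) (c : X →* MulAut Q)
  (hc : ∀ (x : X) (q : Q), jX (c x q) = x * jX q * x⁻¹)
  {Φ : X → ℂ} (hΦ : Cfsg.IsIrrCharacter X Φ) (hΦQ : Cfsg.IsIrrCharacter Q (fun q => Φ (jX q)))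
  (π : X →* Xb) (hπ : Function.Surjective π) (hker : ∀ x, π x = 1 ↔ ∃ q, jX q = x)

include hπ hker in
omit [Fintype X] [Fintype Q] [Fintype Xb] in
theorem infl_mem {β : Xb → ℂ} (hβ : Cfsg.IsIrrCharacter Xb β) :
    Cfsg.IsIrrCharacter X (fun x => β (π x)) ∧
      ∀ q, (fun x => β (π x)) (jX q) = (fun x => β (π x)) 1 := by
  refine ⟨Cfsg.Agent.Lib.Helper82Quot.isIrrCharacter_comp hβ π hπ, fun q => ?_⟩
  change β (π (jX q)) = β (π 1)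
  rw [(hker (jX q)).mpr ⟨q, rfl⟩, map_one]

include hj hc hΦ hΦQ hπ hker in
omit [Fintype Xb] in
theorem gal_irr {β : Xb → ℂ} (hβ : Cfsg.IsIrrCharacter Xb β) :
    Cfsg.IsIrrCharacter X ((fun x => β (π x)) * Φ) ∧
      Cfsg.classInner (fun q => ((fun x => β (π x)) * Φ) (jX q)) (fun q => Φ (jX q)) ≠ 0 :=
  (Cfsg.Agent.Lib.Helper19Gal2.gallagher jX hj c hc hΦQ hΦ (fun _ => rfl)).mapsTo
    (infl_mem jX π hπ hker hβ)

include hj hc hΦ hΦQ hπ hker in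
omit [Fintype Xb] in
theorem gal_inj {β β' : Xb → ℂ} (hβ : Cfsg.IsIrrCharacter Xb β)
    (hβ' : Cfsg.IsIrrCharacter Xb β')
    (h : (fun x => β (π x)) * Φ = (fun x => β' (π x)) * Φ) : β = β' := by
  have h1 := (Cfsg.Agent.Lib.Helper19Gal2.gallagher jX hj c hc hΦQ hΦ (fun _ => rfl)).injOn
    (infl_mem jX π hπ hker hβ) (infl_mem jX π hπ hker hβ') h
  funext y
  obtain ⟨x, rfl⟩ := hπ y
  exact congrFun h1 x

include hj hc hΦ hΦQ hπ hker in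
omit [Fintype Xb] in
theorem gal_surj {ψ : X → ℂ} (hψ : Cfsg.IsIrrCharacter X ψ)
    (hcon : Cfsg.classInner (fun q => ψ (jX q)) (fun q => Φ (jX q)) ≠ 0) :
    ∃ β : Xb → ℂ, Cfsg.IsIrrCharacter Xb β ∧ ψ = (fun x => β (π x)) * Φ := by
  obtain ⟨β, hβ, hβQ, rfl⟩ := Cfsg.Agent.Lib.Helper19Fact.factor jX hj c hc hΦ hΦQ hψ hcon
  obtain ⟨βb, hβb, hβe⟩ := Cfsg.Agent.Lib.Helper77Glaub8.exists_deflate_surj π hπ hβ (by
    intro a ha
    obtain ⟨q, rfl⟩ := (hker a).mp ha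
    exact hβQ q)
  refine ⟨βb, hβb, ?_⟩
  congr 1
  funext x
  exact (hβe x).symm

include hj hc hΦ hΦQ hπ hker in
theorem gal_inner (α : Xb → ℂ) (hα : Cfsg.IsClassFunction Xb α) {γ : Xb → ℂ}
    (hγ : Cfsg.IsIrrCharacter Xb γ) :
    Cfsg.classInner ((fun x => α (π x)) * Φ) ((fun x => γ (π x)) * Φ) = Cfsg.classInner α γ := by
  classical
  have h1 : (fun x => α (π x)) * Φ
      = ∑ δ : Cfsg.IrrCharacter Xb, Cfsg.classInner α δ • ((fun x => δ.1 (π x)) * Φ) := by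
    funext x
    have h2 := congrFun (classFunction_eq_sum α hα) (π x)
    rw [Pi.mul_apply, h2]
    simp only [Finset.sum_apply, Pi.smul_apply, Pi.mul_apply, smul_eq_mul, Finset.sum_mul]
    exact Finset.sum_congr rfl (fun δ _ => by ring)
  rw [h1, classInner_sum_left, Finset.sum_eq_single ⟨γ, hγ⟩]
  · rw [classInner_smul_left, classInner_irr_self (gal_irr jX hj c hc hΦ hΦQ π hπ hker hγ).1,
      mul_one]
  · intro δ _ hne
    rw [classInner_smul_left, classInner_irr_ne (gal_irr jX hj c hc hΦ hΦQ π hπ hker δ.2).1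
      (gal_irr jX hj c hc hΦ hΦQ π hπ hker hγ).1, mul_zero]
    intro he
    exact hne (Subtype.ext (gal_inj jX hj c hc hΦ hΦQ π hπ hker δ.2 hγ he))
  · intro h; exact absurd (Finset.mem_univ _) h

end Gal

section MltNe

variable {G C : Type*} [Group G] [Group C] [Fintype C]

theorem mlt_ne_zero_iff (ι : C →* G) {χ : G → ℂ} {γ : C → ℂ} (hχ : Cfsg.IsCharacter G χ)
    (hγ : Cfsg.IsCharacter C γ) :
    mlt ι χ γ ≠ 0 ↔ Cfsg.classInner (fun c => χ (ι c)) γ ≠ 0 := by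
  rw [mlt_spec ι hχ hγ]
  exact Nat.cast_ne_zero.symm

end MltNe

section InvCase

variable {p : ℕ} [Fact p.Prime] {K C Q S : Type*} [Group K] [Group C] [Group Q] [Group S]
  [Fintype K] [Fintype C] [Fintype Q]
  (d : Dat p K C Q S) {θ : Q → ℂ} (hθ : Cfsg.IsIrrCharacter Q θ)
  (hθK : ∀ k q, θ (d.cK k q) = θ q) (hθS : Inv d.φQ θ)

include hθ hθK hθS in
omit [Fintype C] [Fintype Q] in
/-- The canonical extension is invariant. -/
theorem exists_ext : ∃ Φ : K → ℂ, Cfsg.IsIrrCharacter K Φ ∧ (∀ q, Φ (d.jK q) = θ q) ∧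
    Inv d.φK Φ := by
  obtain ⟨Φ, hΦ, hΦQ, hΦd, huniq⟩ := canon d.jK d.hjK d.cK d.hcK' hθ hθK d.coprime_index
  refine ⟨Φ, hΦ, hΦQ, fun s k => ?_⟩
  have h1 := huniq (fun k => Φ (d.φK s k))
    (Cfsg.Agent.Lib.Helper83Char.irr_comp_mulEquiv (d.φK s) hΦ)
    (fun q => by rw [← d.hφQK, hΦQ, hθS])
    (by rw [detOrder_comp_mulEquiv (d.φK s) (IsIrrCharacter.isCharacter hΦ)]; exact hΦd)
  exact congrFun h1 k

include hθ hθK hθS in
/-- The correspondence above an invariant character of `Q`. -/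
theorem inv_case :
    (∀ ψ : Cfsg.IrrCharacter K, mlt d.jK ψ.1 θ ≠ 0 → Inv d.φK ψ.1 →
      ∃ η : Cfsg.IrrCharacter C, mlt d.j η.1 θ ≠ 0 ∧ ¬ p ∣ mlt d.ι ψ.1 η.1) ∧
    (∀ ψ : Cfsg.IrrCharacter K, mlt d.jK ψ.1 θ ≠ 0 → Inv d.φK ψ.1 →
      ∀ η η' : Cfsg.IrrCharacter C, mlt d.j η.1 θ ≠ 0 → mlt d.j η'.1 θ ≠ 0 →
        ¬ p ∣ mlt d.ι ψ.1 η.1 → ¬ p ∣ mlt d.ι ψ.1 η'.1 → η = η') ∧
    (∀ ψ : Cfsg.IrrCharacter K, mlt d.jK ψ.1 θ ≠ 0 → Inv d.φK ψ.1 →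
      ∀ η : Cfsg.IrrCharacter C, mlt d.j η.1 θ ≠ 0 → ¬ p ∣ mlt d.ι ψ.1 η.1 →
        ((mlt d.ι ψ.1 η.1 : ℤ) ≡ 1 [ZMOD p] ∨ (mlt d.ι ψ.1 η.1 : ℤ) ≡ -1 [ZMOD p])) ∧
    (∀ ψ ψ' : Cfsg.IrrCharacter K, mlt d.jK ψ.1 θ ≠ 0 → mlt d.jK ψ'.1 θ ≠ 0 →
      Inv d.φK ψ.1 → Inv d.φK ψ'.1 →
      ∀ η : Cfsg.IrrCharacter C, mlt d.j η.1 θ ≠ 0 → ¬ p ∣ mlt d.ι ψ.1 η.1 →
        ¬ p ∣ mlt d.ι ψ'.1 η.1 → ψ = ψ') ∧
    (∀ η : Cfsg.IrrCharacter C, mlt d.j η.1 θ ≠ 0 →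
      ∃ ψ : Cfsg.IrrCharacter K, mlt d.jK ψ.1 θ ≠ 0 ∧ Inv d.φK ψ.1 ∧ ¬ p ∣ mlt d.ι ψ.1 η.1) ∧
    (∀ η : Cfsg.IrrCharacter C, mlt d.j η.1 θ ≠ 0 → Inv d.φC η.1) := by
  classical
  have : Fintype (K ⧸ d.jK.range) := Fintype.ofFinite _
  have : Fintype (fixSub d.φbar) := Fintype.ofFinite _
  have hθc := IsIrrCharacter.isCharacter hθ
  obtain ⟨Φ, hΦ, hΦθ, hΦS⟩ := exists_ext d hθ hθK hθS
  have hΦc := IsIrrCharacter.isCharacter hΦ
  have eK : (fun q => Φ (d.jK q)) = θ := funext hΦθ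
  have hΦQ : Cfsg.IsIrrCharacter Q (fun q => Φ (d.jK q)) := by rw [eK]; exact hθ
  set ΦC : C → ℂ := fun c => Φ (d.ι c) with hΦCdef
  have eC : (fun q => ΦC (d.j q)) = θ := funext hΦθ
  have hΦCQ : Cfsg.IsIrrCharacter Q (fun q => ΦC (d.j q)) := by rw [eC]; exact hθ
  have hΦC : Cfsg.IsIrrCharacter C ΦC :=
    Cfsg.Agent.Lib.Helper19Fact.irr_of_res_irr d.j (IsCharacter.comp d.ι hΦc) hΦCQ
  set π := QuotientGroup.mk' d.jK.range with hπdef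
  have hπ : Function.Surjective π := QuotientGroup.mk'_surjective _
  have hfix := isFix_fixSub d.φbar
  have hp := d.not_dvd_card_quot
  have hS := d.hS
  -- parametrisations
  have parK : ∀ ψ : Cfsg.IrrCharacter K, mlt d.jK ψ.1 θ ≠ 0 →
      ∃ β : Cfsg.IrrCharacter (K ⧸ d.jK.range), ψ.1 = (fun x => β.1 (π x)) * Φ := by
    intro ψ hψ
    rw [mlt_ne_zero_iff d.jK (IsIrrCharacter.isCharacter ψ.2) hθc, ← eK] at hψ
    obtain ⟨β, hβ, he⟩ := gal_surj d.jK d.hjK d.cK d.hcK' hΦ hΦQ π hπ d.mk_eq_one_iff ψ.2 hψ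
    exact ⟨⟨β, hβ⟩, he⟩
  have parC : ∀ η : Cfsg.IrrCharacter C, mlt d.j η.1 θ ≠ 0 →
      ∃ γ : Cfsg.IrrCharacter (fixSub d.φbar), η.1 = (fun x => γ.1 (d.πC x)) * ΦC := by
    intro η hη
    rw [mlt_ne_zero_iff d.j (IsIrrCharacter.isCharacter η.2) hθc, ← eC] at hη
    obtain ⟨γ, hγ, he⟩ := gal_surj d.j d.hj d.cC d.hcC hΦC hΦCQ d.πC d.πC_surjective
      d.πC_eq_one_iff η.2 hη
    exact ⟨⟨γ, hγ⟩, he⟩
  have irrK : ∀ β : Cfsg.IrrCharacter (K ⧸ d.jK.range),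
      Cfsg.IsIrrCharacter K ((fun x => β.1 (π x)) * Φ) ∧
        mlt d.jK ((fun x => β.1 (π x)) * Φ) θ ≠ 0 := by
    intro β
    have h := gal_irr d.jK d.hjK d.cK d.hcK' hΦ hΦQ π hπ d.mk_eq_one_iff β.2
    refine ⟨h.1, ?_⟩
    rw [mlt_ne_zero_iff d.jK (IsIrrCharacter.isCharacter h.1) hθc]
    have h2 := h.2
    rwa [eK] at h2
  have irrC : ∀ γ : Cfsg.IrrCharacter (fixSub d.φbar),
      Cfsg.IsIrrCharacter C ((fun x => γ.1 (d.πC x)) * ΦC) ∧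
        mlt d.j ((fun x => γ.1 (d.πC x)) * ΦC) θ ≠ 0 := by
    intro γ
    have h := gal_irr d.j d.hj d.cC d.hcC hΦC hΦCQ d.πC d.πC_surjective d.πC_eq_one_iff γ.2
    refine ⟨h.1, ?_⟩
    rw [mlt_ne_zero_iff d.j (IsIrrCharacter.isCharacter h.1) hθc]
    have h2 := h.2
    rwa [eC] at h2
  have key : ∀ (β : Cfsg.IrrCharacter (K ⧸ d.jK.range)) (γ : Cfsg.IrrCharacter (fixSub d.φbar)),
      mlt d.ι ((fun x => β.1 (π x)) * Φ) ((fun x => γ.1 (d.πC x)) * ΦC)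
        = mlt (fixSub d.φbar).subtype β.1 γ.1 := by
    intro β γ
    unfold mlt
    have h := gal_inner d.j d.hj d.cC d.hcC hΦC hΦCQ d.πC d.πC_surjective d.πC_eq_one_iff
      (fun y => β.1 ((fixSub d.φbar).subtype y))
      (IsCharacter.isClassFunction (IsCharacter.comp _ (IsIrrCharacter.isCharacter β.2))) γ.2
    rw [← h]
    rfl
  have invK : ∀ β : Cfsg.IrrCharacter (K ⧸ d.jK.range),
      Inv d.φK ((fun x => β.1 (π x)) * Φ) ↔ Inv d.φbar β.1 := by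
    intro β
    constructor
    · intro hi s
      have h1 : (fun y => β.1 (d.φbar s y)) = β.1 := by
        apply gal_inj d.jK d.hjK d.cK d.hcK' hΦ hΦQ π hπ d.mk_eq_one_iff
          (Cfsg.Agent.Lib.Helper83Char.irr_comp_mulEquiv (d.φbar s) β.2) β.2
        funext k
        have h2 := hi s k
        simp only [Pi.mul_apply] at h2 ⊢
        rw [hΦS] at h2
        exact h2
      exact congrFun h1
    · intro hi s k
      simp only [Pi.mul_apply]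
      rw [hΦS]
      congr 1
      exact hi s (π k)
  refine ⟨?_, ?_, ?_, ?_, ?_, ?_⟩
  · intro ψ hψ hi
    obtain ⟨β, hβ⟩ := parK ψ hψ
    rw [hβ] at hi
    obtain ⟨γ, hγ⟩ := exists_corr p hS hfix hp β.2 ((invK β).mp hi)
    refine ⟨⟨_, (irrC γ).1⟩, (irrC γ).2, ?_⟩
    rw [hβ, key]
    exact hγ
  · intro ψ hψ hi η η' hη hη' h1 h2
    obtain ⟨β, hβ⟩ := parK ψ hψ
    obtain ⟨γ, hγ⟩ := parC η hη
    obtain ⟨γ', hγ'⟩ := parC η' hη'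
    rw [hβ] at hi
    rw [hβ, hγ, key] at h1
    rw [hβ, hγ', key] at h2
    have := corr_unique p hS hfix hp β.2 ((invK β).mp hi) γ γ' h1 h2
    apply Subtype.ext
    rw [hγ, hγ', this]
  · intro ψ hψ hi η hη h1
    obtain ⟨β, hβ⟩ := parK ψ hψ
    obtain ⟨γ, hγ⟩ := parC η hη
    rw [hβ] at hi
    rw [hβ, hγ, key] at h1 ⊢
    exact corr_pm p hS hfix hp β.2 ((invK β).mp hi) γ h1
  · intro ψ ψ' hψ hψ' hi hi' η hη h1 h2
    obtain ⟨β, hβ⟩ := parK ψ hψ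
    obtain ⟨β', hβ'⟩ := parK ψ' hψ'
    obtain ⟨γ, hγ⟩ := parC η hη
    rw [hβ] at hi
    rw [hβ'] at hi'
    rw [hβ, hγ, key] at h1
    rw [hβ', hγ, key] at h2
    have := corr_inj p hS hfix hp β.2 ((invK β).mp hi) β'.2 ((invK β').mp hi') γ.2 h1 h2
    apply Subtype.ext
    rw [hβ, hβ', this]
  · intro η hη
    obtain ⟨γ, hγ⟩ := parC η hη
    obtain ⟨β, hβi, hβ⟩ := corr_surj p hS hfix hp γ
    refine ⟨⟨_, (irrK β).1⟩, (irrK β).2, (invK β).mpr hβi, ?_⟩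
    rw [hγ, key]
    exact hβ
  · intro η hη s c
    obtain ⟨γ, hγ⟩ := parC η hη
    rw [hγ]
    simp only [Pi.mul_apply, hΦCdef]
    rw [d.πC_φC, d.hφC, hΦS]

end InvCase

end Cfsg.Agent.Lib.Helper77Rel2
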