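import Mathlib
import Cfsg.Prelude.Def_Characters
import Cfsg.Agent.Lib.Helper77Rel2

set_option autoImplicit false

/-!
# Relative Glauberman correspondence: the Clifford reduction
-/

namespace Cfsg.Agent.Lib.Helper77Rel3

open Module Representation
open scoped ComplexConjugate
open Cfsg.Agent.Lib.Helper4Eigen Cfsg.Agent.Lib.Helper4Char Cfsg.Agent.Lib.Helper4Char2
  Cfsg.Agent.Lib.Helper4Char3 Cfsg.Agent.Lib.Helper4Char4 Cfsg.Agent.Lib.Helper4Perm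
  Cfsg.Agent.Lib.Helper77Glaub Cfsg.Agent.Lib.Helper77Glaub2 Cfsg.Agent.Lib.Helper77Glaub3
  Cfsg.Agent.Lib.Helper77Rel1 Cfsg.Agent.Lib.Helper77Rel2 Cfsg.Agent.Lib.Helper19Cliff

section Tower

variable {G T H : Type*} [Group G] [Group T] [Group H] [Fintype G] [Fintype T] [Fintype H]
  (ι₂ : T →* G) (hι₂ : Function.Injective ι₂) (ι₁ : H →* T) (hι₁ : Function.Injective ι₁)
  (c : G →* MulAut H)
  (hc : ∀ (g : G) (n : H), ι₂ (ι₁ (c g n)) = g * ι₂ (ι₁ n) * g⁻¹)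
  {ϑ : H → ℂ} (hϑ : Cfsg.IsIrrCharacter H ϑ)
  (hT : ∀ g : G, g ∈ ι₂.range ↔ ∀ n : H, ϑ (c g n) = ϑ n)

include hι₂ hι₁ hc hϑ hT

theorem ind_irr {ψ : T → ℂ} (hψ : Cfsg.IsIrrCharacter T ψ) (h : mlt ι₁ ψ ϑ ≠ 0) :
    Cfsg.IsIrrCharacter G (ind ι₂ ψ) :=
  ind_inertia_isIrr ι₂ hι₂ ι₁ hι₁ c hc hϑ hT hψ
    ((mlt_ne_zero_iff ι₁ (IsIrrCharacter.isCharacter hψ) (IsIrrCharacter.isCharacter hϑ)).mp h)

theorem over_eq_ind {χ : G → ℂ} (hχ : Cfsg.IsIrrCharacter G χ) {ψ : T → ℂ}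
    (hψ : Cfsg.IsIrrCharacter T ψ) (h : mlt ι₁ ψ ϑ ≠ 0) (h2 : mlt ι₂ χ ψ ≠ 0) :
    χ = ind ι₂ ψ := by
  have hirr := ind_irr ι₂ hι₂ ι₁ hι₁ c hc hϑ hT hψ h
  by_contra hne
  have h3 := classInner_irr_ne hirr hχ (fun e => hne e.symm)
  rw [frobenius ι₂ ψ χ (IsIrrCharacter.isClassFunction hχ),
    mlt_spec' ι₂ (IsIrrCharacter.isCharacter hχ) (IsIrrCharacter.isCharacter hψ)] at h3
  exact h2 (by exact_mod_cast h3)

theorem mlt_ind_self {ψ : T → ℂ} (hψ : Cfsg.IsIrrCharacter T ψ) (h : mlt ι₁ ψ ϑ ≠ 0) :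
    mlt ι₂ (ind ι₂ ψ) ψ = 1 := by
  have hirr := ind_irr ι₂ hι₂ ι₁ hι₁ c hc hϑ hT hψ h
  have h3 := classInner_irr_self hirr
  rw [frobenius ι₂ ψ _ (IsIrrCharacter.isClassFunction hirr),
    mlt_spec' ι₂ (IsIrrCharacter.isCharacter hirr) (IsIrrCharacter.isCharacter hψ)] at h3
  exact_mod_cast h3

theorem under_unique {χ : G → ℂ} (hχ : Cfsg.IsIrrCharacter G χ) {ψ ψ' : T → ℂ}
    (hψ : Cfsg.IsIrrCharacter T ψ) (hψ' : Cfsg.IsIrrCharacter T ψ')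
    (h : mlt ι₁ ψ ϑ ≠ 0) (h' : mlt ι₁ ψ' ϑ ≠ 0) (h2 : mlt ι₂ χ ψ ≠ 0) (h2' : mlt ι₂ χ ψ' ≠ 0) :
    ψ = ψ' := by
  have e1 := over_eq_ind ι₂ hι₂ ι₁ hι₁ c hc hϑ hT hχ hψ h h2
  have e2 := over_eq_ind ι₂ hι₂ ι₁ hι₁ c hc hϑ hT hχ hψ' h' h2'
  exact Cfsg.Agent.Lib.Helper5Cliff2.ind_inertia_injective ι₂ hι₂ ι₁ hι₁ c hc hϑ hT hψ hψ'
    ((mlt_ne_zero_iff ι₁ (IsIrrCharacter.isCharacter hψ) (IsIrrCharacter.isCharacter hϑ)).mp h)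
    ((mlt_ne_zero_iff ι₁ (IsIrrCharacter.isCharacter hψ') (IsIrrCharacter.isCharacter hϑ)).mp h')
    (e1.symm.trans e2)

theorem exists_under_inertia {χ : G → ℂ} (hχ : Cfsg.IsIrrCharacter G χ)
    (h : mlt (ι₂.comp ι₁) χ ϑ ≠ 0) :
    ∃ ψ : Cfsg.IrrCharacter T, mlt ι₁ ψ.1 ϑ ≠ 0 ∧ mlt ι₂ χ ψ.1 ≠ 0 := by
  have h1 := (mlt_ne_zero_iff (ι₂.comp ι₁) (IsIrrCharacter.isCharacter hχ)
    (IsIrrCharacter.isCharacter hϑ)).mp h
  obtain ⟨ψ, hψ, hind, hin⟩ := clifford_corr ι₂ hι₂ ι₁ hι₁ c hc hϑ hT hχ h1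
  have h2 : mlt ι₁ ψ ϑ ≠ 0 := by
    rw [mlt_ne_zero_iff ι₁ (IsIrrCharacter.isCharacter hψ) (IsIrrCharacter.isCharacter hϑ), hin]
    exact h1
  refine ⟨⟨ψ, hψ⟩, h2, ?_⟩
  rw [← hind, mlt_ind_self ι₂ hι₂ ι₁ hι₁ c hc hϑ hT hψ h2]
  exact one_ne_zero

theorem inv_of_under (aG : G ≃* G) (aT : T ≃* T) (ha : ∀ t, ι₂ (aT t) = aG (ι₂ t))
    {χ : G → ℂ} (hχ : Cfsg.IsIrrCharacter G χ) {ψ : T → ℂ}
    (hψ : Cfsg.IsIrrCharacter T ψ) (h : mlt ι₁ ψ ϑ ≠ 0) (h2 : mlt ι₂ χ ψ ≠ 0)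
    (hinv : ∀ t, ψ (aT t) = ψ t) (g : G) : χ (aG g) = χ g := by
  have h3 := mlt_comp ι₂ aG aT ha χ ψ
  have h4 : (fun t => ψ (aT t)) = ψ := funext hinv
  rw [h4] at h3
  have e1 := over_eq_ind ι₂ hι₂ ι₁ hι₁ c hc hϑ hT hχ hψ h h2
  have e2 := over_eq_ind ι₂ hι₂ ι₁ hι₁ c hc hϑ hT
    (Cfsg.Agent.Lib.Helper83Char.irr_comp_mulEquiv aG hχ) hψ h (h3.symm ▸ h2)
  exact congrFun (e2.trans e1.symm) g

theorem inv_of_over (aG : G ≃* G) (aT : T ≃* T) (aH : H ≃* H) (ha : ∀ t, ι₂ (aT t) = aG (ι₂ t))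
    (ha' : ∀ n, ι₁ (aH n) = aT (ι₁ n))
    {χ : G → ℂ} (hχ : Cfsg.IsIrrCharacter G χ) {ψ : T → ℂ}
    (hψ : Cfsg.IsIrrCharacter T ψ) (h : mlt ι₁ ψ ϑ ≠ 0) (h2 : mlt ι₂ χ ψ ≠ 0)
    (hinv : ∀ g, χ (aG g) = χ g) (hinvH : ∀ n, ϑ (aH n) = ϑ n) (t : T) : ψ (aT t) = ψ t := by
  have h3 := mlt_comp ι₂ aG aT ha χ ψ
  have h4 : (fun g => χ (aG g)) = χ := funext hinv
  rw [h4] at h3
  have h5 := mlt_comp ι₁ aT aH ha' ψ ϑ
  have h6 : (fun n => ϑ (aH n)) = ϑ := funext hinvH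
  rw [h6] at h5
  have := under_unique ι₂ hι₂ ι₁ hι₁ c hc hϑ hT hχ
    (Cfsg.Agent.Lib.Helper83Char.irr_comp_mulEquiv aT hψ) hψ (h5.symm ▸ h) h
    (h3.symm ▸ h2) h2
  exact congrFun this t

end Tower

section Sub

variable {p : ℕ} {K C Q S : Type*} [Group K] [Group C] [Group Q] [Group S]
  (d : Dat p K C Q S) (θ : Q → ℂ) (hθ : Cfsg.IsClassFunction Q θ) (hθS : Inv d.φQ θ)

include hθS in
theorem stabK_inv (s : S) (t : K) (ht : t ∈ stabSub d.cK θ) : d.φK s t ∈ stabSub d.cK θ := by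
  intro q
  obtain ⟨q', rfl⟩ := (d.φQ s).surjective q
  rw [d.cK_φK, hθS, hθS, ht]

include hθS in
theorem stabC_inv (s : S) (t : C) (ht : t ∈ stabSub d.cC θ) : d.φC s t ∈ stabSub d.cC θ := by
  intro q
  rw [d.cC_apply, d.hφC]
  exact stabK_inv d θ hθS s (d.ι t) ht q

include hθ in
theorem j_mem_stabC (q₀ : Q) : d.j q₀ ∈ stabSub d.cC θ := d.jK_mem_stabSub hθ q₀

/-- The data attached to the stabilisers of an invariant character of `Q`. -/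
def sub : Dat p (stabSub d.cK θ) (stabSub d.cC θ) Q S where
  ι := (d.ι.comp (stabSub d.cC θ).subtype).codRestrict (stabSub d.cK θ) (fun x => x.2)
  j := d.j.codRestrict (stabSub d.cC θ) (j_mem_stabC d θ hθ)
  cK := d.cK.comp (stabSub d.cK θ).subtype
  φK := resAct d.φK (stabSub d.cK θ) (stabK_inv d θ hθS)
  φC := resAct d.φC (stabSub d.cC θ) (stabC_inv d θ hθS)
  φQ := d.φQ
  hι := fun a b hab => Subtype.ext (d.hι (congrArg Subtype.val hab))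
  hj := fun a b hab => d.hj (congrArg Subtype.val hab)
  hcK := fun k q => Subtype.ext (d.hcK k.1 q)
  hφC := fun s c => Subtype.ext (d.hφC s c.1)
  hφQ := fun s q => Subtype.ext (d.hφQ s q)
  hC := fun t => by
    constructor
    · rintro ⟨x, rfl⟩ s
      obtain ⟨q, hq⟩ := (d.hC (d.ι x.1)).mp ⟨x.1, rfl⟩ s
      exact ⟨q, Subtype.ext hq⟩
    · intro h
      obtain ⟨c, hc⟩ := (d.hC t.1).mpr (fun s => by
        obtain ⟨q, hq⟩ := h s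
        exact ⟨q, congrArg Subtype.val hq⟩)
      refine ⟨⟨c, fun q => ?_⟩, Subtype.ext hc⟩
      rw [d.cC_apply, hc]
      exact t.2 q
  hS := d.hS
  hQ := d.hQ
  hKQ := fun h => d.hKQ (h.trans (Subgroup.card_subgroup_dvd_card _))

theorem sub_ι_coe (x : stabSub d.cC θ) : (((sub d θ hθ hθS).ι x : stabSub d.cK θ) : K) = d.ι x.1 :=
  rfl

theorem sub_j_coe (q : Q) : (((sub d θ hθ hθS).j q : stabSub d.cC θ) : C) = d.j q := rfl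

theorem sub_jK_coe (q : Q) : (((sub d θ hθ hθS).jK q : stabSub d.cK θ) : K) = d.jK q := rfl

end Sub

section CliffMlt

variable {p : ℕ} {K C Q S : Type*} [Group K] [Group C] [Group Q] [Group S]
  [Fintype K] [Fintype C] [Fintype Q]
  (d : Dat p K C Q S) {θ : Q → ℂ} (hθ : Cfsg.IsIrrCharacter Q θ) (hθS : Inv d.φQ θ)
  [Fintype (stabSub d.cK θ)] [Fintype (stabSub d.cC θ)]

omit [Fintype K] [Fintype C] [Fintype Q] [Fintype (stabSub d.cK θ)]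
  [Fintype (stabSub d.cC θ)] in
theorem range_stabK (g : K) :
    g ∈ (stabSub d.cK θ).subtype.range ↔ ∀ n : Q, θ (d.cK g n) = θ n := by
  rw [Subgroup.range_subtype]
  rfl

omit [Fintype K] [Fintype C] [Fintype Q] [Fintype (stabSub d.cK θ)]
  [Fintype (stabSub d.cC θ)] in
theorem range_stabC (g : C) :
    g ∈ (stabSub d.cC θ).subtype.range ↔ ∀ n : Q, θ (d.cC g n) = θ n := by
  rw [Subgroup.range_subtype]
  rfl

/-- Multiplicities can be computed in the stabilisers. -/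
theorem cliff_mlt {χ : K → ℂ} (hχ : Cfsg.IsIrrCharacter K χ) {ξ : C → ℂ}
    (hξ : Cfsg.IsIrrCharacter C ξ) {ψ : stabSub d.cK θ → ℂ}
    (hψ : Cfsg.IsIrrCharacter (stabSub d.cK θ) ψ) {η : stabSub d.cC θ → ℂ}
    (hη : Cfsg.IsIrrCharacter (stabSub d.cC θ) η)
    (h1 : mlt (sub d θ (IsIrrCharacter.isClassFunction hθ) hθS).jK ψ θ ≠ 0)
    (h2 : mlt (stabSub d.cK θ).subtype χ ψ ≠ 0)
    (h3 : mlt (sub d θ (IsIrrCharacter.isClassFunction hθ) hθS).j η θ ≠ 0)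
    (h4 : mlt (stabSub d.cC θ).subtype ξ η ≠ 0) :
    mlt d.ι χ ξ = mlt (sub d θ (IsIrrCharacter.isClassFunction hθ) hθS).ι ψ η := by
  classical
  set e := sub d θ (IsIrrCharacter.isClassFunction hθ) hθS with he
  have hχc := IsIrrCharacter.isCharacter hχ
  have hηc := IsIrrCharacter.isCharacter hη
  have eξ := over_eq_ind (stabSub d.cC θ).subtype (Subgroup.subtype_injective _) e.j e.hj d.cC
    d.hcC hθ (range_stabC d) hξ hη h3 h4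
  have eχ := over_eq_ind (stabSub d.cK θ).subtype (Subgroup.subtype_injective _) e.jK e.hjK d.cK
    d.hcK hθ (range_stabK d) hχ hψ h1 h2
  have s1 : mlt d.ι χ ξ = mlt (d.ι.comp (stabSub d.cC θ).subtype) χ η := by
    apply mlt_eq
    rw [eξ, ← classInner_conj_symm, frobenius _ _ _ (IsCharacter.isClassFunction
      (IsCharacter.comp d.ι hχc))]
    have := mlt_spec' (d.ι.comp (stabSub d.cC θ).subtype) hχc hηc
    change Cfsg.classInner η (fun c => χ (d.ι ((stabSub d.cC θ).subtype c))) = _ at this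
    rw [this, Complex.conj_natCast]
  have s2 : d.ι.comp (stabSub d.cC θ).subtype = (stabSub d.cK θ).subtype.comp e.ι := rfl
  rw [s1, s2, mlt_comp_eq_sum _ _ hχc hηc, Finset.sum_eq_single ⟨ψ, hψ⟩]
  · have : mlt (stabSub d.cK θ).subtype χ ψ = 1 := by
      rw [eχ]
      exact mlt_ind_self (stabSub d.cK θ).subtype (Subgroup.subtype_injective _) e.jK e.hjK d.cK
        d.hcK hθ (range_stabK d) hψ h1
    rw [this, one_mul]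
  · intro δ _ hne
    by_contra hcon
    have hc1 : mlt (stabSub d.cK θ).subtype χ δ.1 ≠ 0 := fun h0 => hcon (by rw [h0, zero_mul])
    have hc2 : mlt e.ι δ.1 η ≠ 0 := fun h0 => hcon (by rw [h0, mul_zero])
    have hc3 : mlt e.jK δ.1 θ ≠ 0 :=
      mlt_trans_ne_zero e.ι e.j (IsIrrCharacter.isCharacter δ.2) hη
        (IsIrrCharacter.isCharacter hθ) hc2 h3
    exact hne (Subtype.ext (under_unique (stabSub d.cK θ).subtype (Subgroup.subtype_injective _)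
      e.jK e.hjK d.cK d.hcK hθ (range_stabK d) hχ δ.2 hψ hc3 h1 hc1 h2))
  · intro h; exact absurd (Finset.mem_univ _) h

end CliffMlt

section Local

variable {p : ℕ} [Fact p.Prime] {K C Q S : Type*} [Group K] [Group C] [Group Q] [Group S]
  [Fintype K] [Fintype C] [Fintype Q]
  (d : Dat p K C Q S) {θ : Q → ℂ} (hθ : Cfsg.IsIrrCharacter Q θ) (hθS : Inv d.φQ θ)

omit [Fact p.Prime] [Fintype C] in
theorem locK [Fintype (stabSub d.cK θ)] (χ : Cfsg.IrrCharacter K) (hi : Inv d.φK χ.1)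
    (ho : mlt d.jK χ.1 θ ≠ 0) :
    ∃ ψ : Cfsg.IrrCharacter (stabSub d.cK θ),
      mlt (sub d θ (IsIrrCharacter.isClassFunction hθ) hθS).jK ψ.1 θ ≠ 0 ∧
      mlt (stabSub d.cK θ).subtype χ.1 ψ.1 ≠ 0 ∧
      Inv (sub d θ (IsIrrCharacter.isClassFunction hθ) hθS).φK ψ.1 := by
  set e := sub d θ (IsIrrCharacter.isClassFunction hθ) hθS with he
  obtain ⟨ψ, h1, h2⟩ := exists_under_inertia (stabSub d.cK θ).subtype
    (Subgroup.subtype_injective _) e.jK e.hjK d.cK d.hcK hθ (range_stabK d) χ.2 ho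
  refine ⟨ψ, h1, h2, fun s t => ?_⟩
  exact inv_of_over (stabSub d.cK θ).subtype (Subgroup.subtype_injective _) e.jK e.hjK d.cK
    d.hcK hθ (range_stabK d) (d.φK s) (e.φK s) (d.φQ s) (fun _ => rfl) (e.hφQK s) χ.2 ψ.2 h1 h2
    (hi s) (hθS s) t

omit [Fact p.Prime] [Fintype K] in
theorem locC [Fintype (stabSub d.cC θ)] (ξ : Cfsg.IrrCharacter C) (ho : mlt d.j ξ.1 θ ≠ 0) :
    ∃ η : Cfsg.IrrCharacter (stabSub d.cC θ),
      mlt (sub d θ (IsIrrCharacter.isClassFunction hθ) hθS).j η.1 θ ≠ 0 ∧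
      mlt (stabSub d.cC θ).subtype ξ.1 η.1 ≠ 0 := by
  set e := sub d θ (IsIrrCharacter.isClassFunction hθ) hθS with he
  exact exists_under_inertia (stabSub d.cC θ).subtype
    (Subgroup.subtype_injective _) e.j e.hj d.cC d.hcC hθ (range_stabC d) ξ.2 ho

include hθ hθS in
/-- The correspondence above a fixed invariant character of `Q`. -/
theorem local_case :
    (∀ χ : Cfsg.IrrCharacter K, mlt d.jK χ.1 θ ≠ 0 → Inv d.φK χ.1 →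
      ∃ ξ : Cfsg.IrrCharacter C, Inv d.φC ξ.1 ∧ ¬ p ∣ mlt d.ι χ.1 ξ.1) ∧
    (∀ χ : Cfsg.IrrCharacter K, mlt d.jK χ.1 θ ≠ 0 → Inv d.φK χ.1 →
      ∀ ξ ξ' : Cfsg.IrrCharacter C, mlt d.j ξ.1 θ ≠ 0 → mlt d.j ξ'.1 θ ≠ 0 →
        ¬ p ∣ mlt d.ι χ.1 ξ.1 → ¬ p ∣ mlt d.ι χ.1 ξ'.1 → ξ = ξ') ∧
    (∀ χ : Cfsg.IrrCharacter K, mlt d.jK χ.1 θ ≠ 0 → Inv d.φK χ.1 →
      ∀ ξ : Cfsg.IrrCharacter C, mlt d.j ξ.1 θ ≠ 0 → ¬ p ∣ mlt d.ι χ.1 ξ.1 →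
        ((mlt d.ι χ.1 ξ.1 : ℤ) ≡ 1 [ZMOD p] ∨ (mlt d.ι χ.1 ξ.1 : ℤ) ≡ -1 [ZMOD p])) ∧
    (∀ χ χ' : Cfsg.IrrCharacter K, mlt d.jK χ.1 θ ≠ 0 → mlt d.jK χ'.1 θ ≠ 0 →
      Inv d.φK χ.1 → Inv d.φK χ'.1 →
      ∀ ξ : Cfsg.IrrCharacter C, mlt d.j ξ.1 θ ≠ 0 → ¬ p ∣ mlt d.ι χ.1 ξ.1 →
        ¬ p ∣ mlt d.ι χ'.1 ξ.1 → χ = χ') ∧
    (∀ ξ : Cfsg.IrrCharacter C, mlt d.j ξ.1 θ ≠ 0 →
      ∃ χ : Cfsg.IrrCharacter K, Inv d.φK χ.1 ∧ ¬ p ∣ mlt d.ι χ.1 ξ.1) := by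
  classical
  have : Fintype (stabSub d.cK θ) := Fintype.ofFinite _
  have : Fintype (stabSub d.cC θ) := Fintype.ofFinite _
  set e := sub d θ (IsIrrCharacter.isClassFunction hθ) hθS with he
  obtain ⟨I1, I2, I3, I4, I5, I6⟩ := inv_case e hθ (fun k q => k.2 q) hθS
  have lK := locK d hθ hθS
  have lC := locC d hθ hθS
  have cm := fun (χ : Cfsg.IrrCharacter K) (ξ : Cfsg.IrrCharacter C)
    (ψ : Cfsg.IrrCharacter (stabSub d.cK θ)) (η : Cfsg.IrrCharacter (stabSub d.cC θ)) =>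
    cliff_mlt d hθ hθS χ.2 ξ.2 ψ.2 η.2
  refine ⟨?_, ?_, ?_, ?_, ?_⟩
  · intro χ ho hi
    obtain ⟨ψ, h1, h2, h3⟩ := lK χ hi ho
    obtain ⟨η, h4, h5⟩ := I1 ψ h1 h3
    have hirr := ind_irr (stabSub d.cC θ).subtype (Subgroup.subtype_injective _) e.j e.hj d.cC
      d.hcC hθ (range_stabC d) η.2 h4
    have h6 : mlt (stabSub d.cC θ).subtype (ind (stabSub d.cC θ).subtype η.1) η.1 ≠ 0 := by
      rw [mlt_ind_self (stabSub d.cC θ).subtype (Subgroup.subtype_injective _) e.j e.hj d.cC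
        d.hcC hθ (range_stabC d) η.2 h4]
      exact one_ne_zero
    refine ⟨⟨_, hirr⟩, fun s c => ?_, ?_⟩
    · exact inv_of_under (stabSub d.cC θ).subtype (Subgroup.subtype_injective _) e.j e.hj d.cC
        d.hcC hθ (range_stabC d) (d.φC s) (e.φC s) (fun _ => rfl) hirr η.2 h4 h6 (I6 η h4 s) c
    · rw [cm χ ⟨_, hirr⟩ ψ η h1 h2 h4 h6]
      exact h5
  · intro χ ho hi ξ ξ' hξ hξ' n1 n2
    obtain ⟨ψ, h1, h2, h3⟩ := lK χ hi ho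
    obtain ⟨η, h4, h5⟩ := lC ξ hξ
    obtain ⟨η', h4', h5'⟩ := lC ξ' hξ'
    rw [cm χ ξ ψ η h1 h2 h4 h5] at n1
    rw [cm χ ξ' ψ η' h1 h2 h4' h5'] at n2
    have := I2 ψ h1 h3 η η' h4 h4' n1 n2
    subst this
    apply Subtype.ext
    rw [over_eq_ind (stabSub d.cC θ).subtype (Subgroup.subtype_injective _) e.j e.hj d.cC
      d.hcC hθ (range_stabC d) ξ.2 η.2 h4 h5,
      over_eq_ind (stabSub d.cC θ).subtype (Subgroup.subtype_injective _) e.j e.hj d.cC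
      d.hcC hθ (range_stabC d) ξ'.2 η.2 h4 h5']
  · intro χ ho hi ξ hξ n1
    obtain ⟨ψ, h1, h2, h3⟩ := lK χ hi ho
    obtain ⟨η, h4, h5⟩ := lC ξ hξ
    rw [cm χ ξ ψ η h1 h2 h4 h5] at n1 ⊢
    exact I3 ψ h1 h3 η h4 n1
  · intro χ χ' ho ho' hi hi' ξ hξ n1 n2
    obtain ⟨ψ, h1, h2, h3⟩ := lK χ hi ho
    obtain ⟨ψ', h1', h2', h3'⟩ := lK χ' hi' ho'
    obtain ⟨η, h4, h5⟩ := lC ξ hξ
    rw [cm χ ξ ψ η h1 h2 h4 h5] at n1
    rw [cm χ' ξ ψ' η h1' h2' h4 h5] at n2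
    have := I4 ψ ψ' h1 h1' h3 h3' η h4 n1 n2
    subst this
    apply Subtype.ext
    rw [over_eq_ind (stabSub d.cK θ).subtype (Subgroup.subtype_injective _) e.jK e.hjK d.cK
      d.hcK hθ (range_stabK d) χ.2 ψ.2 h1 h2,
      over_eq_ind (stabSub d.cK θ).subtype (Subgroup.subtype_injective _) e.jK e.hjK d.cK
      d.hcK hθ (range_stabK d) χ'.2 ψ.2 h1 h2']
  · intro ξ hξ
    obtain ⟨η, h4, h5⟩ := lC ξ hξ
    obtain ⟨ψ, h1, h3, n1⟩ := I5 η h4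
    have hirr := ind_irr (stabSub d.cK θ).subtype (Subgroup.subtype_injective _) e.jK e.hjK d.cK
      d.hcK hθ (range_stabK d) ψ.2 h1
    have h6 : mlt (stabSub d.cK θ).subtype (ind (stabSub d.cK θ).subtype ψ.1) ψ.1 ≠ 0 := by
      rw [mlt_ind_self (stabSub d.cK θ).subtype (Subgroup.subtype_injective _) e.jK e.hjK d.cK
        d.hcK hθ (range_stabK d) ψ.2 h1]
      exact one_ne_zero
    refine ⟨⟨_, hirr⟩, fun s c => ?_, ?_⟩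
    · exact inv_of_under (stabSub d.cK θ).subtype (Subgroup.subtype_injective _) e.jK e.hjK d.cK
        d.hcK hθ (range_stabK d) (d.φK s) (e.φK s) (fun _ => rfl) hirr ψ.2 h1 h6 (h3 s) c
    · rw [cm ⟨_, hirr⟩ ξ ψ η h1 h6 h4 h5]
      exact n1

end Local

section Main

variable {p : ℕ} [Fact p.Prime] {K C Q S : Type*} [Group K] [Group C] [Group Q] [Group S]
  [Fintype K] [Fintype C] [Fintype Q] [Finite S]
  (d : Dat p K C Q S)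

omit [Fact p.Prime] [Fintype K] [Fintype C] [Fintype Q] [Finite S] in
theorem not_dvd_index_C : ¬ p ∣ d.j.range.index := by
  intro h
  apply d.hKQ
  have h1 : Nat.card d.j.range = Nat.card Q :=
    (Nat.card_congr (MonoidHom.ofInjective d.hj).toEquiv).symm
  have h2 : Nat.card C ∣ Nat.card K := by
    rw [Nat.card_congr (MonoidHom.ofInjective d.hι).toEquiv]
    exact Subgroup.card_subgroup_dvd_card _
  refine Dvd.dvd.trans ?_ h2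
  rw [← d.j.range.index_mul_card, h1]
  exact Nat.mul_dvd_mul_right h _

omit [Fact p.Prime] [Fintype K] [Finite S] in
theorem ne_zero_of_not_dvd {m : ℕ} (h : ¬ p ∣ m) : m ≠ 0 := fun h0 => h (h0 ▸ dvd_zero p)

/-- The relative Glauberman correspondence above a normal Sylow `p`-subgroup. -/
theorem main :
    (∀ χ : Cfsg.IrrCharacter K, Inv d.φK χ.1 →
      ∃ ξ : Cfsg.IrrCharacter C, Inv d.φC ξ.1 ∧ ¬ p ∣ mlt d.ι χ.1 ξ.1) ∧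
    (∀ χ : Cfsg.IrrCharacter K, Inv d.φK χ.1 →
      ∀ ξ ξ' : Cfsg.IrrCharacter C, Inv d.φC ξ.1 → Inv d.φC ξ'.1 →
        ¬ p ∣ mlt d.ι χ.1 ξ.1 → ¬ p ∣ mlt d.ι χ.1 ξ'.1 → ξ = ξ') ∧
    (∀ χ : Cfsg.IrrCharacter K, Inv d.φK χ.1 →
      ∀ ξ : Cfsg.IrrCharacter C, Inv d.φC ξ.1 → ¬ p ∣ mlt d.ι χ.1 ξ.1 →
        ((mlt d.ι χ.1 ξ.1 : ℤ) ≡ 1 [ZMOD p] ∨ (mlt d.ι χ.1 ξ.1 : ℤ) ≡ -1 [ZMOD p])) ∧
    (∀ χ χ' : Cfsg.IrrCharacter K, Inv d.φK χ.1 → Inv d.φK χ'.1 →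
      ∀ ξ : Cfsg.IrrCharacter C, Inv d.φC ξ.1 → ¬ p ∣ mlt d.ι χ.1 ξ.1 →
        ¬ p ∣ mlt d.ι χ'.1 ξ.1 → χ = χ') ∧
    (∀ ξ : Cfsg.IrrCharacter C, Inv d.φC ξ.1 →
      ∃ χ : Cfsg.IrrCharacter K, Inv d.φK χ.1 ∧ ¬ p ∣ mlt d.ι χ.1 ξ.1) := by
  classical
  have uK := exists_inv_under_hom p d.hS d.jK d.hjK d.cK d.hcK' d.φK d.φQ d.hφQK d.not_dvd_index
  have uC := exists_inv_under_hom p d.hS d.j d.hj d.cC d.hcC d.φC d.φQ d.hφQ (not_dvd_index_C d)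
  have tr : ∀ (χ : Cfsg.IrrCharacter K) (ξ : Cfsg.IrrCharacter C) (θ : Cfsg.IrrCharacter Q),
      ¬ p ∣ mlt d.ι χ.1 ξ.1 → mlt d.j ξ.1 θ.1 ≠ 0 → mlt d.jK χ.1 θ.1 ≠ 0 := by
    intro χ ξ θ h1 h2
    exact mlt_trans_ne_zero d.ι d.j (IsIrrCharacter.isCharacter χ.2) ξ.2
      (IsIrrCharacter.isCharacter θ.2) (ne_zero_of_not_dvd h1) h2
  refine ⟨?_, ?_, ?_, ?_, ?_⟩
  · intro χ hi
    obtain ⟨θ, h1, h2⟩ := uK χ hi
    exact (local_case d θ.2 h2).1 χ h1 hi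
  · intro χ hi ξ ξ' hξ hξ' n1 n2
    obtain ⟨θ, h1, h2⟩ := uC ξ hξ
    obtain ⟨θ', h1', h2'⟩ := uC ξ' hξ'
    have o1 := tr χ ξ θ n1 h1
    have o2 := tr χ ξ' θ' n2 h1'
    have hχc := IsIrrCharacter.isCharacter χ.2
    obtain ⟨k₀, hk₀⟩ := clifford_conj d.jK d.hjK d.cK d.hcK' χ.2 θ.2 θ'.2
      ((mlt_ne_zero_iff d.jK hχc (IsIrrCharacter.isCharacter θ.2)).mp o1)
      ((mlt_ne_zero_iff d.jK hχc (IsIrrCharacter.isCharacter θ'.2)).mp o2)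
    obtain ⟨c, hc⟩ := d.conj_fixed (IsIrrCharacter.isClassFunction θ.2) h2 h2' k₀ (congrFun hk₀)
    have h3 : mlt d.j ξ'.1 θ.1 ≠ 0 := by
      rw [mlt_ne_zero_iff d.j (IsIrrCharacter.isCharacter ξ'.2) (IsIrrCharacter.isCharacter θ.2),
        ← classInner_res_conj d.j d.cC d.hcC ξ'.1 (IsIrrCharacter.isClassFunction ξ'.2) θ.1 c]
      have : (fun n => θ.1 (d.cC c n)) = θ'.1 := (funext hc).symm
      rw [this]
      exact (mlt_ne_zero_iff d.j (IsIrrCharacter.isCharacter ξ'.2)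
        (IsIrrCharacter.isCharacter θ'.2)).mp h1'
    exact (local_case d θ.2 h2).2.1 χ o1 hi ξ ξ' h1 h3 n1 n2
  · intro χ hi ξ hξ n1
    obtain ⟨θ, h1, h2⟩ := uC ξ hξ
    exact (local_case d θ.2 h2).2.2.1 χ (tr χ ξ θ n1 h1) hi ξ h1 n1
  · intro χ χ' hi hi' ξ hξ n1 n2
    obtain ⟨θ, h1, h2⟩ := uC ξ hξ
    exact (local_case d θ.2 h2).2.2.2.1 χ χ' (tr χ ξ θ n1 h1) (tr χ' ξ θ n2 h1) hi hi' ξ h1 n1 n2
  · intro ξ hξ
    obtain ⟨θ, h1, h2⟩ := uC ξ hξ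
    exact (local_case d θ.2 h2).2.2.2.2 ξ h1

end Main

section Degree

variable {p : ℕ} [Fact p.Prime] {K C S : Type*} [Group K] [Group C] [Group S]
  [Fintype C] (hS : IsPGroup p S) (ι : C →* K) (φK : S →* MulAut K) (φC : S →* MulAut C)
  (hφ : ∀ s c, ι (φC s c) = φK s (ι c))

include hS hφ in
/-- Degrees modulo `p`. -/
theorem degree_congr {χ : K → ℂ} (hχ : Cfsg.IsCharacter K χ) (hi : Inv φK χ)
    (ξ₀ : Cfsg.IrrCharacter C) (hi₀ : Inv φC ξ₀.1)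
    (hother : ∀ ξ : Cfsg.IrrCharacter C, Inv φC ξ.1 → ξ ≠ ξ₀ → p ∣ mlt ι χ ξ.1) :
    PDvd p (χ 1 - (mlt ι χ ξ₀.1 : ℂ) * ξ₀.1 1) := by
  classical
  let _ : MulAction S (Cfsg.IrrCharacter C) := irrAct φC
  have h1 : χ 1 = ∑ ξ : Cfsg.IrrCharacter C, (mlt ι χ ξ.1 : ℂ) * ξ.1 1 := by
    have h2 := congrFun (classFunction_eq_sum (fun c => χ (ι c))
      (IsCharacter.isClassFunction (IsCharacter.comp ι hχ))) 1
    simp only [map_one, Finset.sum_apply, Pi.smul_apply, smul_eq_mul] at h2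
    rw [h2]
    refine Finset.sum_congr rfl (fun ξ _ => ?_)
    rw [mlt_spec ι hχ (IsIrrCharacter.isCharacter ξ.2)]
  have s1 := sum_fixed p hS
    (fun ξ : Cfsg.IrrCharacter C => (mlt ι χ ξ.1 : ℂ) * ξ.1 1)
    (fun s ξ => by
      change (mlt ι χ (fun c => ξ.1 (φC s⁻¹ c)) : ℂ) * ξ.1 (φC s⁻¹ 1) = _
      have h3 := mlt_comp ι (φK s⁻¹) (φC s⁻¹) (hφ s⁻¹) χ ξ.1
      have h4 : (fun g => χ (φK s⁻¹ g)) = χ := funext (hi s⁻¹)
      rw [h4] at h3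
      rw [h3, map_one])
    (fun ξ => (isIntegral_natCast _).mul (irr_integral ξ 1))
    (fun ξ => Inv φC ξ.1) (fun ξ => irrAct_fixed φC ξ)
  rw [← h1] at s1
  have h5 : ξ₀ ∈ Finset.univ.filter (fun ξ : Cfsg.IrrCharacter C => Inv φC ξ.1) := by
    simp [hi₀]
  rw [← Finset.add_sum_erase _ _ h5] at s1
  have s2 : PDvd p (∑ ξ ∈ (Finset.univ.filter (fun ξ : Cfsg.IrrCharacter C => Inv φC ξ.1)).erase ξ₀,
      (mlt ι χ ξ.1 : ℂ) * ξ.1 1) := by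
    refine PDvd.sum _ (fun ξ hξ => ?_)
    obtain ⟨hne, hmem⟩ := Finset.mem_erase.mp hξ
    exact (PDvd.of_nat (hother ξ (Finset.mem_filter.mp hmem).2 hne)).mul_right (irr_integral ξ 1)
  have s3 := s1.add s2
  convert s3 using 1
  ring

end Degree

end Cfsg.Agent.Lib.Helper77Rel3
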