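import Cfsg.Agent.Lib.Helper43SpDefs
import Cfsg.Agent.Lib.Helper84SpXval

set_option autoImplicit false

namespace Cfsg.Agent.Lib.Helper77SpCpiQ

open Matrix Cfsg.Agent.Lib.Helper43St Cfsg.Agent.Lib.Helper43Sp

variable {m : ℕ} {F : Type*} [Field F] {P : Type*} [Group P] (S : CSys m F P)

theorem Xm_lr (i j : Fin m) (t : F) :
    ∃ B : Matrix (Fin m) (Fin m) F, Xm (Sum.inl i : I m) (Sum.inr j) t = Matrix.fromBlocks 1 B 0 1 := by
  refine ⟨(Xm (Sum.inl i : I m) (Sum.inr j) t).toBlocks₁₂, ?_⟩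
  conv_lhs => rw [← Matrix.fromBlocks_toBlocks (Xm (Sum.inl i : I m) (Sum.inr j) t)]
  congr 1
  · ext a b
    unfold Xm
    split_ifs <;> simp [Matrix.toBlocks₁₁, Matrix.single_apply, Matrix.one_apply, ng]
  · ext a b
    unfold Xm
    split_ifs <;> simp [Matrix.toBlocks₂₁, Matrix.single_apply, ng]
  · ext a b
    unfold Xm
    split_ifs <;> simp [Matrix.toBlocks₂₂, Matrix.single_apply, Matrix.one_apply, ng]

theorem pi_Q (q : P) (hq : q ∈ S.Q) :
    ∃ B : Matrix (Fin m) (Fin m) F, ((S.π q : Sp m F) : Matrix (I m) (I m) F) = Matrix.fromBlocks 1 B 0 1 := by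
  unfold CSys.Q at hq
  induction hq using Subgroup.closure_induction with
  | mem g hg =>
    obtain ⟨i, j, t, rfl⟩ := hg
    rw [S.hπ _ _ _ (by simp), Helper84SpXval.X_val _ _ (by simp)]
    exact Xm_lr i j t
  | one => exact ⟨0, by rw [map_one, Matrix.fromBlocks_one]; rfl⟩
  | mul a b _ _ ha hb =>
    obtain ⟨A, hA⟩ := ha
    obtain ⟨B, hB⟩ := hb
    refine ⟨B + A, ?_⟩
    rw [map_mul, Submonoid.coe_mul, hA, hB, Matrix.fromBlocks_multiply]
    simp
  | inv a _ ha =>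
    obtain ⟨A, hA⟩ := ha
    refine ⟨-A, ?_⟩
    have h1 : ((S.π a : Sp m F) : Matrix (I m) (I m) F) * Matrix.fromBlocks 1 (-A) 0 1 = 1 := by
      rw [hA, Matrix.fromBlocks_multiply]
      simp
    have h2 : (((S.π a)⁻¹ : Sp m F) : Matrix (I m) (I m) F) * ((S.π a : Sp m F) : Matrix (I m) (I m) F)
        = 1 := by
      rw [← Submonoid.coe_mul, inv_mul_cancel]; rfl
    rw [map_inv]
    calc (((S.π a)⁻¹ : Sp m F) : Matrix (I m) (I m) F)
        = (((S.π a)⁻¹ : Sp m F) : Matrix (I m) (I m) F) *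
          (((S.π a : Sp m F) : Matrix (I m) (I m) F) * Matrix.fromBlocks 1 (-A) 0 1) := by
            rw [h1, mul_one]
      _ = Matrix.fromBlocks 1 (-A) 0 1 := by rw [← mul_assoc, h2, one_mul]

end Cfsg.Agent.Lib.Helper77SpCpiQ
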