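import Cfsg.Agent.Lib.Helper43SpDefs
import Cfsg.Agent.Lib.Helper84SpXval

set_option autoImplicit false

namespace Cfsg.Agent.Lib.Helper77SpCpiiota

open Matrix Cfsg.Agent.Lib.Helper43St Cfsg.Agent.Lib.Helper43Sp

variable {m : ℕ} {F : Type*} [Field F] {P : Type*} [Group P] (S : CSys m F P)

/-- `a ↦ diag(a, a⁻ᵀ)` as a homomorphism of monoids -/
def Lv (m : ℕ) (F : Type*) [Field F] : SpecialLinearGroup (Fin m) F →* Matrix (I m) (I m) F where
  toFun a := Matrix.fromBlocks a.1 0 0 (a⁻¹).1ᵀ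
  map_one' := by
    simp
  map_mul' a b := by
    rw [Matrix.fromBlocks_multiply]
    simp [Matrix.transpose_mul]

theorem Lv_apply (a : SpecialLinearGroup (Fin m) F) :
    Lv m F a = Matrix.fromBlocks a.1 0 0 (a⁻¹).1ᵀ := rfl

theorem Xm_ll (i j : Fin m) (hij : i ≠ j) (t : F) :
    Xm (Sum.inl i : I m) (Sum.inl j) t = Lv m F (tv i j t) := by
  rw [Lv_apply, tv_inv]
  have h1 : ((tv i j t : SpecialLinearGroup (Fin m) F)).1 = 1 + Matrix.single i j t := tv_val i j hij t
  have h2 : ((tv i j (-t) : SpecialLinearGroup (Fin m) F)).1 = 1 + Matrix.single i j (-t) :=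
    tv_val i j hij (-t)
  rw [h1, h2]
  unfold Xm
  rw [if_neg (by simp [ng])]
  ext (a | a) (b | b)
  · simp [Matrix.single_apply, Matrix.one_apply, ng]
  · simp [ng]
  · simp [ng]
  · simp [Matrix.single_apply, Matrix.one_apply, ng, sg, eq_comm, and_comm, sub_eq_add_neg]
    split_ifs <;> simp

variable {Sg : Type*} [Group Sg] (A : StSys m F Sg) (ι : Sg →* P)

theorem pi_iota (hι : ∀ i j t, i ≠ j → ι (A.x i j t) = S.x (Sum.inl i) (Sum.inl j) t) (g : Sg) :
    ((S.π (ι g) : Sp m F) : Matrix (I m) (I m) F) =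
      Matrix.fromBlocks (A.π g).1 0 0 ((A.π g)⁻¹).1ᵀ := by
  have key : ((Matrix.symplecticGroup (Fin m) F).subtype.comp (S.π.comp ι)) = (Lv m F).comp A.π := by
    apply MonoidHom.eq_of_eqOn_dense A.gen
    rintro _ ⟨i, j, t, hij, rfl⟩
    change ((S.π (ι (A.x i j t)) : Sp m F) : Matrix (I m) (I m) F) = Lv m F (A.π (A.x i j t))
    rw [hι i j t hij, S.hπ _ _ _ (by simpa using hij), A.hπ i j t hij,
      Helper84SpXval.X_val _ _ (by simpa using hij), Xm_ll i j hij]
  exact DFunLike.congr_fun key g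

end Cfsg.Agent.Lib.Helper77SpCpiiota
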