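import Cfsg.Agent.Lib.Helper43SpDefs

set_option autoImplicit false

namespace Cfsg.Agent.Lib.Helper77SpCtl

open Matrix Cfsg.Agent.Lib.Helper43St Cfsg.Agent.Lib.Helper43Sp

variable {m : ℕ} {F : Type*} [Field F] {P : Type*} [Group P] (S : CSys m F P)

theorem sw_long (L : Fin m) : sw (Sum.inl L : I m) (Sum.inr L) = Equiv.swap (Sum.inl L) (Sum.inr L) := by
  unfold sw
  exact if_pos rfl

/-- conjugation by `w⁻¹` maps a closure into a subgroup as soon as it does so on the generators -/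
theorem conj_closure_le {G : Type*} [Group G] (w : G) (s : Set G) (U : Subgroup G)
    (h : ∀ g ∈ s, w⁻¹ * g * w ∈ U) (q : G) (hq : q ∈ Subgroup.closure s) : w⁻¹ * q * w ∈ U := by
  induction hq using Subgroup.closure_induction with
  | mem g hg => exact h g hg
  | one => simp
  | mul a b _ _ ha hb =>
    have : w⁻¹ * (a * b) * w = (w⁻¹ * a * w) * (w⁻¹ * b * w) := by group
    rw [this]; exact U.mul_mem ha hb
  | inv a _ ha =>
    have : w⁻¹ * a⁻¹ * w = (w⁻¹ * a * w)⁻¹ := by group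
    rw [this]; exact U.inv_mem ha

variable {Sg : Type*} [Group Sg] (A : StSys m F Sg) (ι : Sg →* P)

theorem tl_UA (hm : 2 ≤ m) (hι : ∀ i j t, i ≠ j → ι (A.x i j t) = S.x (Sum.inl i) (Sum.inl j) t)
    (L : Fin m) (hL : L.val + 1 = m) (u : Sg) (hu : u ∈ A.U)
    (w_long : ∀ (i : Fin m) (c d : I m) (_ : c ≠ d) (t : F),
      (∃ t', S.w (Sum.inl i) (Sum.inr i) 1 * S.x c d t * (S.w (Sum.inl i) (Sum.inr i) 1)⁻¹ =
        S.x (sw (Sum.inl i) (Sum.inr i) c) (sw (Sum.inl i) (Sum.inr i) d) t') ∧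
      (∃ t', (S.w (Sum.inl i) (Sum.inr i) 1)⁻¹ * S.x c d t * S.w (Sum.inl i) (Sum.inr i) 1 =
        S.x (sw (Sum.inl i) (Sum.inr i) c) (sw (Sum.inl i) (Sum.inr i) d) t')) :
    (S.w (Sum.inl L) (Sum.inr L) 1)⁻¹ * ι u * S.w (Sum.inl L) (Sum.inr L) 1 ∈ S.U := by
  have hu' : ι u ∈ Subgroup.closure (ι '' {g | ∃ i j t, i < j ∧ g = A.x i j t}) := by
    rw [← MonoidHom.map_closure]
    exact Subgroup.mem_map_of_mem ι hu
  refine conj_closure_le _ _ _ ?_ _ hu'
  rintro _ ⟨_, ⟨i, j, t, hij, rfl⟩, rfl⟩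
  rw [hι i j t hij.ne]
  obtain ⟨t', ht'⟩ := (w_long L (Sum.inl i) (Sum.inl j) (by simpa using hij.ne) t).2
  rw [ht', sw_long]
  have hjm := j.2
  have hij' : i.val < j.val := hij
  have hiL : i ≠ L := fun h => by rw [h] at hij'; omega
  have e1 : Equiv.swap (Sum.inl L : I m) (Sum.inr L) (Sum.inl i) = Sum.inl i :=
    Equiv.swap_apply_of_ne_of_ne (by simpa using hiL) (by simp)
  rw [e1]
  by_cases hjL : j = L
  · subst hjL
    rw [Equiv.swap_apply_left]
    refine Subgroup.subset_closure ⟨_, _, t', ?_, rfl⟩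
    simp only [rk, Sum.elim_inl, Sum.elim_inr]
    omega
  · have e2 : Equiv.swap (Sum.inl L : I m) (Sum.inr L) (Sum.inl j) = Sum.inl j :=
      Equiv.swap_apply_of_ne_of_ne (by simpa using hjL) (by simp)
    rw [e2]
    refine Subgroup.subset_closure ⟨_, _, t', ?_, rfl⟩
    simpa only [rk, Sum.elim_inl] using hij'

theorem tl_Q' (hm : 2 ≤ m) (L : Fin m) (hL : L.val + 1 = m) (q : P) (hq : q ∈ S.Q' L)
    (w_long : ∀ (i : Fin m) (c d : I m) (_ : c ≠ d) (t : F),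
      (∃ t', S.w (Sum.inl i) (Sum.inr i) 1 * S.x c d t * (S.w (Sum.inl i) (Sum.inr i) 1)⁻¹ =
        S.x (sw (Sum.inl i) (Sum.inr i) c) (sw (Sum.inl i) (Sum.inr i) d) t') ∧
      (∃ t', (S.w (Sum.inl i) (Sum.inr i) 1)⁻¹ * S.x c d t * S.w (Sum.inl i) (Sum.inr i) 1 =
        S.x (sw (Sum.inl i) (Sum.inr i) c) (sw (Sum.inl i) (Sum.inr i) d) t')) :
    (S.w (Sum.inl L) (Sum.inr L) 1)⁻¹ * q * S.w (Sum.inl L) (Sum.inr L) 1 ∈ S.U := by
  refine conj_closure_le _ _ _ ?_ _ hq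
  rintro _ ⟨i, j, t, hij, rfl⟩
  obtain ⟨t', ht'⟩ := (w_long L (Sum.inl i) (Sum.inr j) (by simp) t).2
  rw [ht', sw_long]
  have hjm := j.2
  have him := i.2
  by_cases hiL : i = L
  · subst hiL
    have hjL : j ≠ i := fun h => hij (by rw [h])
    have hjL' : j.val ≠ i.val := fun h => hjL (Fin.ext h)
    have e2 : Equiv.swap (Sum.inl i : I m) (Sum.inr i) (Sum.inr j) = Sum.inr j :=
      Equiv.swap_apply_of_ne_of_ne (by simp) (by simpa using hjL)
    rw [Equiv.swap_apply_left, e2]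
    refine Subgroup.subset_closure ⟨_, _, t', ?_, rfl⟩
    simp only [rk, Sum.elim_inr]
    omega
  · have hiL' : i.val ≠ L.val := fun h => hiL (Fin.ext h)
    have e1 : Equiv.swap (Sum.inl L : I m) (Sum.inr L) (Sum.inl i) = Sum.inl i :=
      Equiv.swap_apply_of_ne_of_ne (by simpa using hiL) (by simp)
    rw [e1]
    by_cases hjL : j = L
    · subst hjL
      rw [Equiv.swap_apply_right]
      refine Subgroup.subset_closure ⟨_, _, t', ?_, rfl⟩
      simp only [rk, Sum.elim_inl]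
      omega
    · have e2 : Equiv.swap (Sum.inl L : I m) (Sum.inr L) (Sum.inr j) = Sum.inr j :=
        Equiv.swap_apply_of_ne_of_ne (by simp) (by simpa using hjL)
      rw [e2]
      refine Subgroup.subset_closure ⟨_, _, t', ?_, rfl⟩
      simp only [rk, Sum.elim_inl, Sum.elim_inr]
      omega

end Cfsg.Agent.Lib.Helper77SpCtl
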