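import Cfsg.Agent.Lib.Helper43SpDefs2
import Cfsg.Agent.Lib.Helper65SpAPI
import Cfsg.Agent.Lib.Helper65Spcbasic
import Cfsg.Agent.Lib.Helper36SpPmx
import Cfsg.Agent.Lib.Helper77SpEmbx

set_option autoImplicit false

/-! Project 243 (wave 3), piece `dpi`. -/

namespace Cfsg.Agent.Lib.Helper77SpDpi

open Matrix Cfsg.Agent.Lib.Helper43BP Cfsg.Agent.Lib.Helper43St Cfsg.Agent.Lib.Helper43Sp
open Cfsg.Agent.Lib.Helper65SpAPI

variable {m : ℕ} {F : Type*} [Field F] {P : Type*} [Group P] (G : GC m F P)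

theorem pi_conj (σ : Equiv.Perm (Fin (m + 3))) (c d : I 2) (hcd : c ≠ d) (t : F) :
    G.π (G.θ σ * G.ι (X c d t) * (G.θ σ)⁻¹) = X (pmI σ (e2 0 1 c)) (pmI σ (e2 0 1 d)) t := by
  have h01 : (0 : Fin (m + 3)) ≠ 1 := by
    intro h
    have := congrArg Fin.val h
    simp at this
  have hne : e2 (0 : Fin (m + 3)) 1 c ≠ e2 0 1 d := fun e => hcd (Helper77SpEmb.e2_inj 0 1 h01 e)
  have h1 : G.π (G.ι (X c d t)) = X (e2 0 1 c) (e2 0 1 d) t := by
    apply Subtype.ext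
    rw [G.hπι, X_val _ _ hne]
    have : ((X c d t : Sp 2 F)).1 = Xm c d t := X_val c d hcd t
    rw [this, Helper77SpEmbx.Em_X 0 1 h01 c d hcd]
  rw [map_mul, map_mul, map_inv, G.hπθ, h1, Helper36SpPmx.PM_X σ _ _ hne t X_val]

theorem pmI_lw0 (σ : Equiv.Perm (Fin (m + 3))) (a : I (m + 3)) (h : σ 0 = ab a) :
    pmI σ (e2 0 1 (lw 0 a)) = a := by
  rcases a with i | i
  · simp only [lw, e2, pmI, Sum.map_inl, Matrix.cons_val_zero]
    rw [h]; rfl
  · simp only [lw, e2, pmI, Sum.map_inr, Matrix.cons_val_zero]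
    rw [h]; rfl

theorem pmI_lw1 (σ : Equiv.Perm (Fin (m + 3))) (a : I (m + 3)) (h : σ 1 = ab a) :
    pmI σ (e2 0 1 (lw 1 a)) = a := by
  rcases a with i | i
  · simp only [lw, e2, pmI, Sum.map_inl, Matrix.cons_val_one, Matrix.cons_val_zero]
    rw [h]; rfl
  · simp only [lw, e2, pmI, Sum.map_inr, Matrix.cons_val_one, Matrix.cons_val_zero]
    rw [h]; rfl

theorem ext2 (i j : Fin (m + 3)) (hij : i ≠ j) : ∃ σ : Equiv.Perm (Fin (m + 3)), σ 0 = i ∧ σ 1 = j := by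
  have h01 : (1 : Fin (m + 3)) ≠ 0 := by
    intro h
    have := congrArg Fin.val h
    simp at this
  have hk : Equiv.swap 0 i 1 ≠ i := by
    intro e
    have : Equiv.swap 0 i 1 = Equiv.swap 0 i 0 := by rw [e, Equiv.swap_apply_left]
    exact h01 ((Equiv.swap 0 i).injective this)
  refine ⟨Equiv.swap (Equiv.swap 0 i 1) j * Equiv.swap 0 i, ?_, ?_⟩
  · rw [Equiv.Perm.mul_apply, Equiv.swap_apply_left, Equiv.swap_apply_of_ne_of_ne hk.symm hij]
  · rw [Equiv.Perm.mul_apply, Equiv.swap_apply_left]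

-- piece `dpi`
theorem g_pi (a b : I (m + 3)) (t : F) (hab : a ≠ b) : G.π (G.x a b t) = X a b t := by
  unfold GC.x
  split_ifs with h
  · obtain ⟨h0, h1⟩ := h.choose_spec
    have hne : (lw 0 a : I 2) ≠ lw 1 b := by
      rcases a with i | i <;> rcases b with j | j <;> simp [lw]
    rw [pi_conj G _ _ _ hne, pmI_lw0 _ a h0, pmI_lw1 _ b h1]
  · have hab' : ab a = ab b := by
      by_contra hne
      exact h (ext2 _ _ hne)
    have hb := Helper65Spcbasic.eq_ng_of_ab hab hab'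
    have hne : (lw 0 a : I 2) ≠ lw 0 b := by
      rw [hb]
      rcases a with i | i <;> simp [lw, ng]
    rw [pi_conj G _ _ _ hne, pmI_lw0 _ a (Equiv.swap_apply_left _ _),
      pmI_lw0 _ b (by rw [Equiv.swap_apply_left, hab'])]

end Cfsg.Agent.Lib.Helper77SpDpi
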