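import Cfsg.Agent.Lib.Helper43SpDefs2
import Cfsg.Agent.Lib.Helper65SpAPI
import Cfsg.Agent.Lib.Helper65Sphxd
import Cfsg.Agent.Lib.Helper28SpM2w
import Cfsg.Agent.Lib.Helper43PresF

set_option autoImplicit false

/-! Project 243 (wave 3), piece `el2`. -/

namespace Cfsg.Agent.Lib.Helper77SpEl2

open Matrix Cfsg.Agent.Lib.Helper43BP Cfsg.Agent.Lib.Helper43St Cfsg.Agent.Lib.Helper43Sp
open Cfsg.Agent.Lib.Helper65SpAPI Cfsg.Agent.Lib.Helper28SpM2w

-- piece `el2`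
theorem exists_zeta (F : Type*) [Field F] [Finite F] :
    ∃ ζ : F, ζ ≠ 0 ∧ ∀ (a : I 2) (t : F), ab a = 0 →
      X a (ng a) t ∈ Subgroup.closure (↑(gl F ζ) : Set (Sp 2 F)) := by
  classical
  have := Fintype.ofFinite F
  obtain ⟨p, hp⟩ := CharP.exists F
  have hpp : Fact p.Prime := ⟨CharP.char_is_prime F p⟩
  let _ : Algebra (ZMod p) F := ZMod.algebra F p
  obtain ⟨ζ, hζ0, -, hord⟩ := Cfsg.Agent.Lib.Helper43Pres.exists_zeta (F := F)
  have hadj := Cfsg.Agent.Lib.Helper43Pres.adjoin_zeta_sq p hζ0 hord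
  refine ⟨ζ, hζ0, ?_⟩
  set K := Subgroup.closure (↑(gl F ζ) : Set (Sp 2 F)) with hK
  have hne : (Sum.inl 0 : I 2) ≠ Sum.inr 0 := by decide
  have hu : (X (Sum.inl 0) (Sum.inr 0) 1 : Sp 2 F) ∈ K :=
    Subgroup.subset_closure (by simp [gl])
  have hh : (hX (Sum.inl 0) (Sum.inr 0) ζ : Sp 2 F) ∈ K :=
    Subgroup.subset_closure (by simp [gl])
  have hw : (wX (Sum.inl 0) (Sum.inr 0) 1 : Sp 2 F) ∈ K :=
    Subgroup.subset_closure (by simp [gl])
  have hconj : ∀ t : F, (hX (Sum.inl 0) (Sum.inr 0) ζ : Sp 2 F) * X (Sum.inl 0) (Sum.inr 0) t *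
      (hX (Sum.inl 0) (Sum.inr 0) ζ)⁻¹ = X (Sum.inl 0) (Sum.inr 0) (ζ ^ 2 * t) := by
    intro t
    have h2 := Helper65Sphxd.hX_long (F := F) (0 : Fin 2) (Units.mk0 ζ hζ0)
    rw [Units.val_mk0] at h2
    rw [h2, D_X _ _ _ hne]
    congr 1
    have e1 : ((chi (Pi.mulSingle (0 : Fin 2) (Units.mk0 ζ hζ0)) (Sum.inl 0 : I 2) : Fˣ) : F) = ζ := by
      simp [chi]
    have e2 : ((chi (Pi.mulSingle (0 : Fin 2) (Units.mk0 ζ hζ0)) (Sum.inr 0 : I 2) : Fˣ) : F) = ζ⁻¹ := by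
      simp [chi]
    rw [e1, e2, inv_inv]
    ring
  have hadd : ∀ s t : F, (X (Sum.inl 0) (Sum.inr 0) s : Sp 2 F) ∈ K →
      (X (Sum.inl 0) (Sum.inr 0) t : Sp 2 F) ∈ K → (X (Sum.inl 0) (Sum.inr 0) (s + t) : Sp 2 F) ∈ K := by
    intro s t hs ht
    rw [X_add _ _ hne]
    exact mul_mem hs ht
  have hzero : (X (Sum.inl 0) (Sum.inr 0) 0 : Sp 2 F) ∈ K := by
    rw [X_zero]; exact one_mem _
  have hnat : ∀ (k : ℕ) (t : F), (X (Sum.inl 0) (Sum.inr 0) t : Sp 2 F) ∈ K →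
      (X (Sum.inl 0) (Sum.inr 0) ((k : F) * t) : Sp 2 F) ∈ K := by
    intro k t ht
    induction k with
    | zero => simpa using hzero
    | succ k ih =>
      have : ((k + 1 : ℕ) : F) * t = (k : F) * t + t := by push_cast; ring
      rw [this]
      exact hadd _ _ ih ht
  have key : ∀ x : F, ∀ t : F, (X (Sum.inl 0) (Sum.inr 0) t : Sp 2 F) ∈ K →
      (X (Sum.inl 0) (Sum.inr 0) (x * t) : Sp 2 F) ∈ K := by
    intro x
    have hx : x ∈ Algebra.adjoin (ZMod p) {ζ ^ 2} := by rw [hadj]; trivial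
    induction hx using Algebra.adjoin_induction with
    | mem y hy =>
      intro t ht
      rw [Set.mem_singleton_iff] at hy
      rw [hy, ← hconj]
      exact mul_mem (mul_mem hh ht) (inv_mem hh)
    | algebraMap r =>
      intro t ht
      have : algebraMap (ZMod p) F r = ((r.val : ℕ) : F) := by
        conv_lhs => rw [← ZMod.natCast_zmod_val r]
        rw [map_natCast]
      rw [this]
      exact hnat _ t ht
    | add y z _ _ ihy ihz =>
      intro t ht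
      rw [add_mul]
      exact hadd _ _ (ihy t ht) (ihz t ht)
    | mul y z _ _ ihy ihz =>
      intro t ht
      rw [mul_assoc]
      exact ihy _ (ihz t ht)
  have hall : ∀ t : F, (X (Sum.inl 0) (Sum.inr 0) t : Sp 2 F) ∈ K := by
    intro t
    have := key t 1 hu
    rwa [mul_one] at this
  have hwc : ∀ t : F, (wX (Sum.inl 0) (Sum.inr 0) 1 : Sp 2 F) * X (Sum.inl 0) (Sum.inr 0) t *
      (wX (Sum.inl 0) (Sum.inr 0) 1)⁻¹ = X (Sum.inr 0) (Sum.inl 0) (-t) := by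
    intro t
    apply conj_of
    rw [wL_val, X_val _ _ hne, X_val _ _ hne.symm]
    have := (matL (F := F) (Sum.inl 0) (Sum.inr 0) hne t).1
    simpa using this
  intro a t ha
  rcases a with i | i
  · have hi : i = 0 := ha
    subst hi
    exact hall t
  · have hi : i = 0 := ha
    subst hi
    have h1 := hwc (-t)
    rw [neg_neg] at h1
    change (X (Sum.inr 0) (Sum.inl 0) t : Sp 2 F) ∈ K
    rw [← h1]
    exact mul_mem (mul_mem hw (hall _)) (inv_mem hw)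

end Cfsg.Agent.Lib.Helper77SpEl2
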