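import Cfsg.Agent.Lib.Helper43SpDefs2
import Cfsg.Agent.Lib.Helper65SpAPI
import Cfsg.Agent.Lib.Helper65Spcbasic

set_option autoImplicit false

/-! Project 243 (wave 3), piece `pbasic` (copy of helper65's `cbasic` for a `PSys`). -/

namespace Cfsg.Agent.Lib.Helper77SpPbasic

open Matrix Cfsg.Agent.Lib.Helper43St Cfsg.Agent.Lib.Helper43Sp
open Cfsg.Agent.Lib.Helper65SpAPI Cfsg.Agent.Lib.Helper65Spcbasic

section general

variable {m : ℕ} {F : Type*} [Field F] {P : Type*} [Group P] (S : PSys m F P)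

/-- every root lies in a `quad` -/
theorem exists_quad (hm : 2 ≤ m) (a b : I m) (hab : a ≠ b) :
    ∃ (f : Sp 2 F →* P) (c d : I 2), c ≠ d ∧ ∀ t, f (X c d t) = S.x a b t := by
  by_cases h : ab a = ab b
  · have hb := eq_ng_of_ab hab h
    obtain ⟨j, hj⟩ : ∃ j : Fin m, ab a ≠ j := by
      by_cases h0 : (ab a).val = 0
      · exact ⟨⟨1, by omega⟩, fun e => by rw [e] at h0; simp at h0⟩
      · exact ⟨⟨0, by omega⟩, fun e => by rw [e] at h0; simp at h0⟩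
    obtain ⟨f, hf⟩ := S.quad (ab a) j hj
    refine ⟨f, l0 a, ng (l0 a), ne_ng'' _, fun t => ?_⟩
    rw [hf _ _ t (ne_ng'' _), e2_ng, e2_l0, hb]
  · obtain ⟨f, hf⟩ := S.quad (ab a) (ab b) h
    have hne : l0 a ≠ l1 b := fun e => ab_l0_ne_l1 a b (by rw [e])
    refine ⟨f, l0 a, l1 b, hne, fun t => ?_⟩
    rw [hf _ _ t hne, e2_l0, e2_l1]

theorem x_add (hm : 2 ≤ m) (a b : I m) (hab : a ≠ b) (s t : F) :
    S.x a b (s + t) = S.x a b s * S.x a b t := by
  obtain ⟨f, c, d, hcd, hf⟩ := exists_quad S hm a b hab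
  rw [← hf, ← hf, ← hf, X_add c d hcd, map_mul]
theorem x_zero (hm : 2 ≤ m) (a b : I m) (hab : a ≠ b) : S.x a b 0 = 1 := by
  obtain ⟨f, c, d, hcd, hf⟩ := exists_quad S hm a b hab
  rw [← hf, X_zero, map_one]
theorem x_neg (hm : 2 ≤ m) (a b : I m) (hab : a ≠ b) (t : F) : (S.x a b t)⁻¹ = S.x a b (-t) := by
  obtain ⟨f, c, d, hcd, hf⟩ := exists_quad S hm a b hab
  rw [← hf, ← hf, ← map_inv, X_inv]

theorem map_wX {i j : Fin m} (f : Sp 2 F →* P)
    (hf : ∀ c d t, c ≠ d → f (X c d t) = S.x (e2 i j c) (e2 i j d) t) (c d : I 2) (hcd : c ≠ d) (u : F) :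
    f (wX c d u) = S.w (e2 i j c) (e2 i j d) u := by
  unfold wX PSys.w
  rw [map_mul, map_mul, hf _ _ _ hcd, hf _ _ _ hcd.symm]

theorem map_hX {i j : Fin m} (f : Sp 2 F →* P)
    (hf : ∀ c d t, c ≠ d → f (X c d t) = S.x (e2 i j c) (e2 i j d) t) (c d : I 2) (hcd : c ≠ d) (u : F) :
    f (hX c d u) = S.hh (e2 i j c) (e2 i j d) u := by
  unfold hX PSys.hh
  rw [map_mul, map_inv, map_wX S f hf c d hcd, map_wX S f hf c d hcd]

end general

variable {m : ℕ} {F : Type*} [Field F] {P : Type*} [Group P] (Y : PSys (m + 3) F P)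

-- piece `pbasic`
theorem y_add (a b : I (m + 3)) (hab : a ≠ b) (s t : F) : Y.x a b (s + t) = Y.x a b s * Y.x a b t :=
  x_add Y (by omega) a b hab s t
theorem y_zero (a b : I (m + 3)) (hab : a ≠ b) : Y.x a b 0 = 1 := x_zero Y (by omega) a b hab
theorem y_neg (a b : I (m + 3)) (hab : a ≠ b) (t : F) : (Y.x a b t)⁻¹ = Y.x a b (-t) :=
  x_neg Y (by omega) a b hab t

end Cfsg.Agent.Lib.Helper77SpPbasic
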