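import Cfsg.Agent.Lib.Helper43SpDefs2
import Cfsg.Agent.Lib.Helper77SpPbasic
import Cfsg.Agent.Lib.Helper65Spcxw

set_option autoImplicit false

/-! Project 243 (wave 3), piece `phs`. -/

namespace Cfsg.Agent.Lib.Helper77SpPhs

open Matrix Cfsg.Agent.Lib.Helper43St Cfsg.Agent.Lib.Helper43Sp
open Cfsg.Agent.Lib.Helper65SpAPI Cfsg.Agent.Lib.Helper65Spcbasic Cfsg.Agent.Lib.Helper65Sphxd
open Cfsg.Agent.Lib.Helper65Spcxw (exists_quad_at e2_l0' e2_r0' n00)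
open Cfsg.Agent.Lib.Helper77SpPbasic

variable {m : ℕ} {F : Type*} [Field F] {P : Type*} [Group P]

theorem chi_e2 (i k : Fin m) (hik : i ≠ k) (u : Fˣ) (c : I 2) :
    chi (Pi.mulSingle i u) (e2 i k c) = chi (Pi.mulSingle (0 : Fin 2) u) c := by
  rcases c with c | c <;> fin_cases c
  · simp [chi, e2]
  · simp [chi, e2, Pi.mulSingle_eq_of_ne hik.symm]
  · simp [chi, e2]
  · simp [chi, e2, Pi.mulSingle_eq_of_ne hik.symm]

theorem chi_of_ne (i : Fin m) (u : Fˣ) (a : I m) (h : ab a ≠ i) : chi (Pi.mulSingle i u) a = 1 := by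
  rcases a with a | a
  · have h' : a ≠ i := h
    simp [chi, Pi.mulSingle_eq_of_ne h']
  · have h' : a ≠ i := h
    simp [chi, Pi.mulSingle_eq_of_ne h']

theorem scale (S : PSys m F P) (hm : 2 ≤ m) (i : Fin m) (u : Fˣ) (c d : I m) (hcd : c ≠ d) (t : F) :
    S.hl i u * S.x c d t * (S.hl i u)⁻¹ =
      S.x c d (((chi (Pi.mulSingle i u) c : Fˣ) : F) * ((chi (Pi.mulSingle i u) d : Fˣ) : F)⁻¹ * t) := by
  by_cases h : ab c = i ∨ ab d = i
  · obtain ⟨k, hk, c', d', hcd', rfl, rfl⟩ := exists_quad_at hm i c d hcd h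
    obtain ⟨f, hf⟩ := S.quad i k hk
    have h2 := hX_long (F := F) (0 : Fin 2) u
    have h3 : S.hl i u = f (D (Pi.mulSingle 0 u)) := by
      rw [← h2, map_hX S f hf _ _ n00, e2_l0', e2_r0']
      rfl
    rw [h3, ← hf _ _ _ hcd', ← map_inv, ← map_mul, ← map_mul, D_X _ _ _ hcd', hf _ _ _ hcd',
      chi_e2 i k hk, chi_e2 i k hk]
  · rw [not_or] at h
    have e1 : ∀ s, Commute (S.x (Sum.inl i) (Sum.inr i) s) (S.x c d t) := fun s =>
      S.dis (Sum.inl i) (Sum.inr i) c d (by simp) hcd (Ne.symm h.1) (Ne.symm h.2) (Ne.symm h.1) (Ne.symm h.2) s t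
    have e2 : ∀ s, Commute (S.x (Sum.inr i) (Sum.inl i) s) (S.x c d t) := fun s =>
      S.dis (Sum.inr i) (Sum.inl i) c d (by simp) hcd (Ne.symm h.1) (Ne.symm h.2) (Ne.symm h.1) (Ne.symm h.2) s t
    have e3 : ∀ s, Commute (S.w (Sum.inl i) (Sum.inr i) s) (S.x c d t) := fun s => by
      unfold PSys.w
      exact ((e1 _).mul_left (e2 _)).mul_left (e1 _)
    have e4 : Commute (S.hl i u) (S.x c d t) := by
      unfold PSys.hl PSys.hh
      exact (e3 _).mul_left (e3 _).inv_left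
    rw [e4.eq, mul_inv_cancel_right, chi_of_ne i u c h.1, chi_of_ne i u d h.2]
    simp

-- piece `phs`
theorem y_scale (Y : PSys (m + 3) F P) (i : Fin (m + 3)) (u : Fˣ) (a b : I (m + 3)) (hab : a ≠ b) (t : F) :
    Y.hl i u * Y.x a b t * (Y.hl i u)⁻¹ =
      Y.x a b (((chi (Pi.mulSingle i u) a : Fˣ) : F) * ((chi (Pi.mulSingle i u) b : Fˣ) : F)⁻¹ * t) :=
  scale Y (by omega) i u a b hab t

end Cfsg.Agent.Lib.Helper77SpPhs
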