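import Cfsg.Agent.Lib.Helper43SpDefs2
import Cfsg.Agent.Lib.Helper43R1Defs
import Cfsg.Agent.Lib.Helper77SpPbasic

set_option autoImplicit false

/-! Project 243 (wave 3), piece `pstr`. -/

namespace Cfsg.Agent.Lib.Helper77SpPstr

open Matrix Cfsg.Agent.Lib.Helper43BP Cfsg.Agent.Lib.Helper43St Cfsg.Agent.Lib.Helper43Sp
open Cfsg.Agent.Lib.Helper43R1 (StR)
open Cfsg.Agent.Lib.Helper77SpPbasic

variable {m : ℕ} {F : Type*} [Field F] {P : Type*} [Group P] (Y : PSys (m + 3) F P)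

-- piece `pstr`
theorem y_StR
    (h6 : Y.x (Sum.inl 0) (Sum.inl 1) 1 * Y.x (Sum.inl 1) (Sum.inl 2) 1 * (Y.x (Sum.inl 0) (Sum.inl 1) 1)⁻¹ *
      (Y.x (Sum.inl 1) (Sum.inl 2) 1)⁻¹ = Y.x (Sum.inl 0) (Sum.inl 2) 1)
    (h7 : Commute (Y.x (Sum.inl 0) (Sum.inl 1) 1) (Y.x (Sum.inl 0) (Sum.inl 2) 1))
    (τ : Fin 3 → I (m + 3)) (hτ : Function.Injective (ab ∘ τ))
    (y_chain : ∀ (a b c : I (m + 3)) (_ : ab a ≠ ab b) (_ : ab b ≠ ab c) (_ : ab a ≠ ab c) (s t : F),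
      Y.x a b s * Y.x b c t * (Y.x a b s)⁻¹ * (Y.x b c t)⁻¹ = Y.x a c (s * t))
    (y_row : ∀ (a b c : I (m + 3)) (_ : ab a ≠ ab b) (_ : ab b ≠ ab c) (_ : ab a ≠ ab c) (s t : F),
      Commute (Y.x a b s) (Y.x a c t))
    (y_col : ∀ (a b c : I (m + 3)) (_ : ab a ≠ ab b) (_ : ab b ≠ ab c) (_ : ab a ≠ ab c) (s t : F),
      Commute (Y.x a c s) (Y.x b c t)) :
    ∃ T : StR 3 F P, ∀ p q t, T.x p q t = Y.x (τ p) (τ q) t := by
  have hab : ∀ p q : Fin 3, p ≠ q → ab (τ p) ≠ ab (τ q) := fun p q h e => h (hτ e)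
  have hne : ∀ p q : Fin 3, p ≠ q → τ p ≠ τ q := fun p q h e => hab p q h (by rw [e])
  refine ⟨{ x := fun p q t => Y.x (τ p) (τ q) t
            add := fun i j hij s t => y_add Y _ _ (hne i j hij) s t
            comm := ?_
            chain := fun i j k hij hjk hik s t =>
              y_chain _ _ _ (hab i j hij) (hab j k hjk) (hab i k hik) s t }, fun _ _ _ => rfl⟩
  intro i j k l hij hkl hil hjk s t
  by_cases hik : i = k
  · subst hik
    by_cases hjl : j = l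
    · subst hjl
      change Y.x (τ i) (τ j) s * Y.x (τ i) (τ j) t = Y.x (τ i) (τ j) t * Y.x (τ i) (τ j) s
      rw [← y_add Y _ _ (hne i j hij), ← y_add Y _ _ (hne i j hij), add_comm s t]
    · exact y_row _ _ _ (hab i j hij) (hab j l hjl) (hab i l hil) s t
  · by_cases hjl : j = l
    · subst hjl
      exact y_col _ _ _ (hab i k hik) (hab k j hkl) (hab i j hij) s t
    · exfalso
      revert hij hkl hil hjk hik hjl
      revert i j k l
      decide

end Cfsg.Agent.Lib.Helper77SpPstr
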