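import Cfsg.Agent.Lib.Helper72StSwx
import Cfsg.Agent.Lib.Helper57StSbx
import Cfsg.Agent.Lib.Helper36StSS3

set_option autoImplicit false

/-! Project 143: auxiliary conjugation formulas (hypothesis free, from the landed pieces `swx`, `sbx`, `sbasic`). -/

namespace Cfsg.Agent.Lib.Helper77StAux

open Cfsg.Agent.Lib.Helper43R1 Cfsg.Agent.Lib.Helper57StSbasic Cfsg.Agent.Lib.Helper72StSwx

variable {n : ℕ} {K : Type*} [Field K] {Γ : Type*} [Group Γ] (S : StR n K Γ)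

theorem w_ij (i j k : Fin n) (hij : i ≠ j) (hik : i ≠ k) (hjk : j ≠ k) (t u : K) (ht : t ≠ 0) :
    S.w i j t * S.x i j u * (S.w i j t)⁻¹ = S.x j i (-(t⁻¹ ^ 2 * u)) :=
  Cfsg.Agent.Lib.Helper57StSbx.w_ij S i j k hij hik hjk t u ht (w_ik S) (w_kj S)

theorem w_ji (i j k : Fin n) (hij : i ≠ j) (hik : i ≠ k) (hjk : j ≠ k) (t u : K) (ht : t ≠ 0) :
    S.w i j t * S.x j i u * (S.w i j t)⁻¹ = S.x i j (-(t ^ 2 * u)) := by
  have h := w_ij S i j k hij hik hjk (-t) (-(t ^ 2 * u)) (neg_ne_zero.mpr ht)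
  rw [← w_inv S i j hij t] at h
  have e : -((-t)⁻¹ ^ 2 * -(t ^ 2 * u)) = u := by field_simp
  rw [e] at h
  rw [← h]
  group

/-- conjugating `w` -/
theorem conj_w (g : Γ) (a b c d : Fin n) (ε : K) (u : K)
    (h1 : ∀ v, g * S.x a b v * g⁻¹ = S.x c d (ε * v))
    (h2 : ∀ v, g * S.x b a v * g⁻¹ = S.x d c (ε⁻¹ * v)) :
    g * S.w a b u * g⁻¹ = S.w c d (ε * u) := by
  unfold StR.w
  have e : g * (S.x a b u * S.x b a (-u⁻¹) * S.x a b u) * g⁻¹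
      = (g * S.x a b u * g⁻¹) * (g * S.x b a (-u⁻¹) * g⁻¹) * (g * S.x a b u * g⁻¹) := by group
  rw [e, h1, h2]
  have e2 : ε⁻¹ * -u⁻¹ = -(ε * u)⁻¹ := by rw [mul_inv]; ring
  rw [e2]

/-- `w_ij(t) = w_ji(-t⁻¹)` -/
theorem w_swap (i j k : Fin n) (hij : i ≠ j) (hik : i ≠ k) (hjk : j ≠ k) (t : K) (ht : t ≠ 0) :
    S.w i j t = S.w j i (-t⁻¹) := by
  have h := conj_w S (S.w i j t) i j j i (-(t⁻¹ ^ 2)) t
    (fun v => by rw [w_ij S i j k hij hik hjk t v ht]; congr 1; ring)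
    (fun v => by
      rw [w_ji S i j k hij hik hjk t v ht]
      congr 1
      field_simp)
  have e : S.w i j t * S.w i j t * (S.w i j t)⁻¹ = S.w i j t := by group
  rw [e] at h
  rw [h]
  congr 1
  field_simp

section three

variable (T : StR 3 K Γ)

theorem r1 : T.w 0 1 (-1) * T.w 1 2 1 * (T.w 0 1 (-1))⁻¹ = T.w 0 2 (-1) := by
  have hne : (-1 : K) ≠ 0 := neg_ne_zero.mpr one_ne_zero
  have h := conj_w T (T.w 0 1 (-1)) 1 2 0 2 (-1) 1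
    (fun v => w_jk T 0 1 2 (by decide) (by decide) (by decide) (-1) v hne)
    (fun v => w_kj T 0 1 2 (by decide) (by decide) (by decide) (-1) v hne)
  rwa [mul_one] at h

theorem r2 : T.w 0 1 (-1) * T.w 0 2 (-1) * (T.w 0 1 (-1))⁻¹ = T.w 1 2 (-1) := by
  have hne : (-1 : K) ≠ 0 := neg_ne_zero.mpr one_ne_zero
  have h := conj_w T (T.w 0 1 (-1)) 0 2 1 2 1 (-1)
    (fun v => by
      rw [w_ik T 0 1 2 (by decide) (by decide) (by decide) (-1) v hne]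
      congr 1
      field_simp)
    (fun v => by
      rw [w_ki T 0 1 2 (by decide) (by decide) (by decide) (-1) v hne]
      congr 1
      simp)
  rwa [one_mul] at h

theorem r3 : T.w 1 2 1 * T.w 0 2 1 * (T.w 1 2 1)⁻¹ = T.w 0 1 1 := by
  have h := conj_w T (T.w 1 2 1) 0 2 0 1 1 1
    (fun v => by
      rw [w_kj T 1 2 0 (by decide) (by decide) (by decide) 1 v one_ne_zero]
      congr 1
      simp)
    (fun v => by
      rw [w_jk T 1 2 0 (by decide) (by decide) (by decide) 1 v one_ne_zero]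
      congr 1
      simp)
  rwa [one_mul] at h

theorem r1' : (T.w 0 1 1)⁻¹ * T.w 1 2 1 * T.w 0 1 1 = (T.w 0 2 1)⁻¹ := by
  have h := r1 T
  rw [← w_inv T 0 1 (by decide) 1, ← w_inv T 0 2 (by decide) 1, inv_inv] at h
  exact h

theorem r2' : (T.w 0 1 1)⁻¹ * (T.w 0 2 1)⁻¹ * T.w 0 1 1 = (T.w 1 2 1)⁻¹ := by
  have h := r2 T
  rw [← w_inv T 0 1 (by decide) 1, ← w_inv T 0 2 (by decide) 1, ← w_inv T 1 2 (by decide) 1,
    inv_inv] at h
  exact h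

/-- the braid relation -/
theorem braid : T.w 1 2 1 * T.w 0 1 1 * T.w 1 2 1 = T.w 0 1 1 * T.w 1 2 1 * T.w 0 1 1 := by
  have h2 := r2' T
  have h3 := r3 T
  generalize T.w 0 1 1 = A at *
  generalize T.w 1 2 1 = B at *
  generalize T.w 0 2 1 = D at *
  have hD : D = A * B * A⁻¹ := by
    calc D = (A * (A⁻¹ * D⁻¹ * A) * A⁻¹)⁻¹ := by group
      _ = (A * B⁻¹ * A⁻¹)⁻¹ := by rw [h2]
      _ = A * B * A⁻¹ := by group
  calc B * A * B = (B * (A * B * A⁻¹) * B⁻¹) * B * A := by group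
    _ = (B * D * B⁻¹) * B * A := by rw [hD]
    _ = A * B * A := by rw [h3]

/-- `A⁻² B = B⁻¹ A⁻²` -/
theorem sq_comm : (T.w 0 1 1)⁻¹ * (T.w 0 1 1)⁻¹ * T.w 1 2 1
    = (T.w 1 2 1)⁻¹ * ((T.w 0 1 1)⁻¹ * (T.w 0 1 1)⁻¹) := by
  have h1 := r1' T
  have h2 := r2' T
  generalize T.w 0 1 1 = A at *
  generalize T.w 1 2 1 = B at *
  generalize T.w 0 2 1 = D at *
  calc A⁻¹ * A⁻¹ * B = A⁻¹ * (A⁻¹ * B * A) * A * (A⁻¹ * A⁻¹) := by group
    _ = (A⁻¹ * D⁻¹ * A) * (A⁻¹ * A⁻¹) := by rw [h1]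
    _ = B⁻¹ * (A⁻¹ * A⁻¹) := by rw [h2]

/-- `cc = A B A⁻²` -/
theorem cc_eq : Cfsg.Agent.Lib.Helper36StSS3.cc T
    = T.w 0 1 1 * T.w 1 2 1 * ((T.w 0 1 1)⁻¹ * (T.w 0 1 1)⁻¹) := by
  unfold Cfsg.Agent.Lib.Helper36StSS3.cc StR.hh
  rw [← w_inv T 0 1 (by decide) 1]

end three

end Cfsg.Agent.Lib.Helper77StAux
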