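import Cfsg.Agent.Lib.Helper77StAux

set_option autoImplicit false

/-! Project 143, piece `sc3`.  `cc` is `Helper36StSS3.cc` (same body as in the skeleton).  One statement of piece
`srk1` (`w_pow4`) is an extra hypothesis at the end. -/

namespace Cfsg.Agent.Lib.Helper77StSc3

open Cfsg.Agent.Lib.Helper43R1 Cfsg.Agent.Lib.Helper36StSS3 Cfsg.Agent.Lib.Helper77StAux

variable {K : Type*} [Field K] {Γ : Type*} [Group Γ] (T : StR 3 K Γ)

theorem cc_cube [Finite K]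
    (w_pow4 : ∀ (i j k : Fin 3) (_ : i ≠ j) (_ : i ≠ k) (_ : j ≠ k), T.w i j 1 ^ 4 = 1) :
    cc T * cc T * cc T = 1 := by
  have h4 := w_pow4 0 1 2 (by decide) (by decide) (by decide)
  have hbr := braid T
  have hsq := sq_comm T
  rw [cc_eq T]
  generalize T.w 0 1 1 = A at *
  generalize T.w 1 2 1 = B at *
  calc A * B * (A⁻¹ * A⁻¹) * (A * B * (A⁻¹ * A⁻¹)) * (A * B * (A⁻¹ * A⁻¹))
      = A * B * A * (A⁻¹ * A⁻¹ * B) * A * (A⁻¹ * A⁻¹ * B) * (A⁻¹ * A⁻¹) := by group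
    _ = A * B * A * (B⁻¹ * (A⁻¹ * A⁻¹)) * A * (B⁻¹ * (A⁻¹ * A⁻¹)) * (A⁻¹ * A⁻¹) := by rw [hsq]
    _ = (A * B * A) * (B * A * B)⁻¹ * (A ^ 4)⁻¹ := by group
    _ = 1 := by rw [hbr, h4]; group

end Cfsg.Agent.Lib.Helper77StSc3
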