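import Cfsg.Agent.Lib.Helper77StAux

set_option autoImplicit false

/-! Project 143, piece `scx` (hypothesis free).  `cc` is `Helper36StSS3.cc` (same body as in the skeleton). -/

namespace Cfsg.Agent.Lib.Helper77StScx

open Cfsg.Agent.Lib.Helper43R1 Cfsg.Agent.Lib.Helper36StSS3 Cfsg.Agent.Lib.Helper77StAux
  Cfsg.Agent.Lib.Helper57StSbasic Cfsg.Agent.Lib.Helper72StSwx

variable {K : Type*} [Field K] {Γ : Type*} [Group Γ] (T : StR 3 K Γ)

private theorem cc_conj (g : Γ) : cc T * g * (cc T)⁻¹ =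
    T.w 0 1 1 * (T.w 1 2 1 * (T.w 0 1 (-1) * (T.w 0 1 (-1) * g * (T.w 0 1 (-1))⁻¹) *
      (T.w 0 1 (-1))⁻¹) * (T.w 1 2 1)⁻¹) * (T.w 0 1 1)⁻¹ := by
  have e : T.w 0 1 (-1) = (T.w 0 1 1)⁻¹ := (w_inv T 0 1 (by decide) 1).symm
  rw [cc_eq T, e]
  simp only [mul_assoc, mul_inv_rev, inv_inv]

private theorem hne : (-1 : K) ≠ 0 := neg_ne_zero.mpr one_ne_zero

private theorem c01 (u : K) : cc T * T.x 0 1 u * (cc T)⁻¹ = T.x 1 2 u := by
  rw [cc_conj, w_ij T 0 1 2 (by decide) (by decide) (by decide) _ _ hne,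
    w_ji T 0 1 2 (by decide) (by decide) (by decide) _ _ hne,
    w_ki T 1 2 0 (by decide) (by decide) (by decide) _ _ one_ne_zero,
    w_ik T 0 1 2 (by decide) (by decide) (by decide) _ _ one_ne_zero]
  congr 1
  simp

private theorem c10 (u : K) : cc T * T.x 1 0 u * (cc T)⁻¹ = T.x 2 1 u := by
  rw [cc_conj, w_ji T 0 1 2 (by decide) (by decide) (by decide) _ _ hne,
    w_ij T 0 1 2 (by decide) (by decide) (by decide) _ _ hne,
    w_ik T 1 2 0 (by decide) (by decide) (by decide) _ _ one_ne_zero,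
    w_ki T 0 1 2 (by decide) (by decide) (by decide) _ _ one_ne_zero]
  congr 1
  simp

private theorem c02 (u : K) : cc T * T.x 0 2 u * (cc T)⁻¹ = T.x 1 0 u := by
  rw [cc_conj, w_ik T 0 1 2 (by decide) (by decide) (by decide) _ _ hne,
    w_jk T 0 1 2 (by decide) (by decide) (by decide) _ _ hne,
    w_kj T 1 2 0 (by decide) (by decide) (by decide) _ _ one_ne_zero,
    w_ij T 0 1 2 (by decide) (by decide) (by decide) _ _ one_ne_zero]
  congr 1
  simp

private theorem c20 (u : K) : cc T * T.x 2 0 u * (cc T)⁻¹ = T.x 0 1 u := by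
  rw [cc_conj, w_ki T 0 1 2 (by decide) (by decide) (by decide) _ _ hne,
    w_kj T 0 1 2 (by decide) (by decide) (by decide) _ _ hne,
    w_jk T 1 2 0 (by decide) (by decide) (by decide) _ _ one_ne_zero,
    w_ji T 0 1 2 (by decide) (by decide) (by decide) _ _ one_ne_zero]
  congr 1
  simp

private theorem c12 (u : K) : cc T * T.x 1 2 u * (cc T)⁻¹ = T.x 2 0 u := by
  rw [cc_conj, w_jk T 0 1 2 (by decide) (by decide) (by decide) _ _ hne,
    w_ik T 0 1 2 (by decide) (by decide) (by decide) _ _ hne,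
    w_ij T 1 2 0 (by decide) (by decide) (by decide) _ _ one_ne_zero,
    w_kj T 0 1 2 (by decide) (by decide) (by decide) _ _ one_ne_zero]
  congr 1
  simp

private theorem c21 (u : K) : cc T * T.x 2 1 u * (cc T)⁻¹ = T.x 0 2 u := by
  rw [cc_conj, w_kj T 0 1 2 (by decide) (by decide) (by decide) _ _ hne,
    w_ki T 0 1 2 (by decide) (by decide) (by decide) _ _ hne,
    w_ji T 1 2 0 (by decide) (by decide) (by decide) _ _ one_ne_zero,
    w_jk T 0 1 2 (by decide) (by decide) (by decide) _ _ one_ne_zero]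
  congr 1
  simp

theorem cc_x [Finite K] (a b : Fin 3) (hab : a ≠ b) (u : K) :
    cc T * T.x a b u * (cc T)⁻¹ = T.x (a + 1) (b + 1) u := by
  fin_cases a <;> fin_cases b
  · exact absurd rfl hab
  · exact c01 T u
  · exact c02 T u
  · exact c10 T u
  · exact absurd rfl hab
  · exact c12 T u
  · exact c20 T u
  · exact c21 T u
  · exact absurd rfl hab

end Cfsg.Agent.Lib.Helper77StScx
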