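import Cfsg.Agent.Lib.Helper77StScx
import Cfsg.Agent.Lib.Helper57StShx

set_option autoImplicit false

/-! Project 143, piece `st3gen` (hypothesis free).  `cc` is `Helper36StSS3.cc` (same body as in the skeleton). -/

namespace Cfsg.Agent.Lib.Helper77StSt3gen

open Cfsg.Agent.Lib.Helper43R1 Cfsg.Agent.Lib.Helper36StSS3 Cfsg.Agent.Lib.Helper77StAux
  Cfsg.Agent.Lib.Helper57StSbasic Cfsg.Agent.Lib.Helper72StSwx Cfsg.Agent.Lib.Helper77StScx

variable {K : Type*} [Field K] {Γ : Type*} [Group Γ]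

theorem st3_gen [Finite K] (T : StR 3 K Γ)
    (hgen : Subgroup.closure {g | ∃ i j t, i ≠ j ∧ g = T.x i j t} = ⊤)
    (ζ : K) (hζ : ∀ b : K, b ≠ 0 → ∃ j : ℕ, ζ ^ j = b) :
    Subgroup.closure ({T.x 0 1 1, T.hh 2 1 ζ, T.w 0 1 1, cc T} : Set Γ) = ⊤ := by
  set H := Subgroup.closure ({T.x 0 1 1, T.hh 2 1 ζ, T.w 0 1 1, cc T} : Set Γ) with hH
  have m1 : T.x 0 1 1 ∈ H := Subgroup.subset_closure (by simp)
  have m2 : T.hh 2 1 ζ ∈ H := Subgroup.subset_closure (by simp)
  have m3 : T.w 0 1 1 ∈ H := Subgroup.subset_closure (by simp)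
  have m4 : cc T ∈ H := Subgroup.subset_closure (by simp)
  have conj_mem : ∀ {g x : Γ}, g ∈ H → x ∈ H → g * x * g⁻¹ ∈ H := fun hg hx =>
    H.mul_mem (H.mul_mem hg hx) (H.inv_mem hg)
  have hpow : ∀ j : ℕ, T.x 0 1 (ζ ^ j) ∈ H := by
    intro j
    induction j with
    | zero => simpa using m1
    | succ j ih =>
      by_cases h0 : ζ = 0
      · rw [h0, zero_pow (Nat.succ_ne_zero j), x_zero T 0 1 (by decide)]
        exact H.one_mem
      · have := conj_mem m2 ih
        rw [Cfsg.Agent.Lib.Helper57StShx.hh_kj T 2 1 0 (by decide) (by decide) (by decide) ζ _ h0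
          (w_ki T) (w_kj T)] at this
        rwa [pow_succ'] 
  have h01 : ∀ u, T.x 0 1 u ∈ H := by
    intro u
    by_cases hu : u = 0
    · rw [hu, x_zero T 0 1 (by decide)]
      exact H.one_mem
    · obtain ⟨j, rfl⟩ := hζ u hu
      exact hpow j
  have step : ∀ (a b : Fin 3), a ≠ b → (∀ u, T.x a b u ∈ H) → ∀ u, T.x (a + 1) (b + 1) u ∈ H := by
    intro a b hab h u
    rw [← cc_x T a b hab u]
    exact conj_mem m4 (h u)
  have h12 : ∀ u, T.x 1 2 u ∈ H := step 0 1 (by decide) h01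
  have h20 : ∀ u, T.x 2 0 u ∈ H := step 1 2 (by decide) h12
  have h10 : ∀ u, T.x 1 0 u ∈ H := by
    intro u
    have := conj_mem m3 (h01 (-u))
    rw [w_ij T 0 1 2 (by decide) (by decide) (by decide) 1 _ one_ne_zero] at this
    simpa using this
  have h21 : ∀ u, T.x 2 1 u ∈ H := step 1 0 (by decide) h10
  have h02 : ∀ u, T.x 0 2 u ∈ H := step 2 1 (by decide) h21
  rw [eq_top_iff, ← hgen, Subgroup.closure_le]
  rintro _ ⟨i, j, t, hij, rfl⟩
  fin_cases i <;> fin_cases j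
  · exact absurd rfl hij
  · exact h01 t
  · exact h02 t
  · exact h10 t
  · exact absurd rfl hij
  · exact h12 t
  · exact h20 t
  · exact h21 t
  · exact absurd rfl hij

end Cfsg.Agent.Lib.Helper77StSt3gen
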