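import Cfsg.Agent.Lib.Helper77StAux

set_option autoImplicit false

/-! Project 143, piece `stc`.  `cc` is `Helper36StSS3.cc` (same body as in the skeleton).  One statement of piece
`srk1` (`w_pow4`) is an extra hypothesis at the end. -/

namespace Cfsg.Agent.Lib.Helper77StStc

open Cfsg.Agent.Lib.Helper43R1 Cfsg.Agent.Lib.Helper36StSS3 Cfsg.Agent.Lib.Helper77StAux
  Cfsg.Agent.Lib.Helper57StSbasic

variable {K : Type*} [Field K] {Γ : Type*} [Group Γ] (T : StR 3 K Γ)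

theorem t_cc [Finite K]
    (w_pow4 : ∀ (i j k : Fin 3) (_ : i ≠ j) (_ : i ≠ k) (_ : j ≠ k), T.w i j 1 ^ 4 = 1) :
    T.w 0 1 1 * cc T * (T.w 0 1 1)⁻¹ = T.hh 1 0 (-1) * (cc T)⁻¹ := by
  have h4 := w_pow4 0 1 2 (by decide) (by decide) (by decide)
  have hsq := sq_comm T
  have hne : (-1 : K) ≠ 0 := neg_ne_zero.mpr one_ne_zero
  have hs : T.w 1 0 1 = (T.w 0 1 1)⁻¹ := by
    rw [w_inv T 0 1 (by decide) 1, w_swap T 0 1 2 (by decide) (by decide) (by decide) (-1) hne]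
    congr 1
    simp
  have hhh : T.hh 1 0 (-1) = T.w 0 1 1 * T.w 0 1 1 := by
    unfold StR.hh
    rw [← w_inv T 1 0 (by decide) 1, hs, inv_inv]
  rw [hhh, cc_eq T]
  generalize T.w 0 1 1 = A at *
  generalize T.w 1 2 1 = B at *
  calc A * (A * B * (A⁻¹ * A⁻¹)) * A⁻¹
      = A ^ 4 * (A⁻¹ * A⁻¹ * B) * (A⁻¹ * A⁻¹ * A⁻¹) := by
        simp only [pow_succ, pow_zero, one_mul, mul_assoc, mul_inv_cancel_left]
    _ = A ^ 4 * (B⁻¹ * (A⁻¹ * A⁻¹)) * (A⁻¹ * A⁻¹ * A⁻¹) := by rw [hsq]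
    _ = A ^ 4 * B⁻¹ * A⁻¹ * (A ^ 4)⁻¹ := by
        simp only [pow_succ, pow_zero, one_mul, mul_assoc, mul_inv_rev]
    _ = A ^ 4 * B⁻¹ * A⁻¹ := by rw [h4, inv_one, mul_one]
    _ = A * A * (A * B * (A⁻¹ * A⁻¹))⁻¹ := by
        simp only [pow_succ, pow_zero, one_mul, mul_assoc, mul_inv_rev, inv_inv]

end Cfsg.Agent.Lib.Helper77StStc
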