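import Mathlib
import Cfsg.Prelude.Def_Blocks
import Cfsg.Agent.Lib.Helper79Graded2
import Cfsg.Agent.Lib.Helper82Quot

/-!
# Invariance of principal block characters under elements with orbits of `p'`-size
-/

set_option autoImplicit false
set_option linter.unusedSectionVars false

namespace Cfsg.Agent.Lib.Helper79Graded3

open Cfsg Cfsg.Agent.Lib.Helper81Local Cfsg.Agent.Lib.Helper81Base Cfsg.Agent.Lib.Helper81Block
open Cfsg.Agent.Lib.Helper79Graded Cfsg.Agent.Lib.Helper79Graded2

section twisted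

variable {N : Type*} [Group N] [Fintype N]

/-- a twisted orthogonality relation. -/
theorem sum_twisted_eq_zero (θ : IrrCharacter N) (σ : MulAut N)
    (hne : (fun n => (θ : N → ℂ) (σ n)) ≠ (θ : N → ℂ)) :
    ∑ m, (θ : N → ℂ) (σ m * m⁻¹) = 0 := by
  classical
  set θσ : IrrCharacter N := ⟨(θ : N → ℂ) ∘ σ.toMonoidHom,
    Cfsg.Agent.Lib.Helper82Quot.isIrrCharacter_comp θ.2 σ.toMonoidHom σ.surjective⟩ with hθσ
  have hθσa : ∀ n, (θσ : N → ℂ) n = (θ : N → ℂ) (σ n) := fun n => rfl
  have hne' : θ ≠ θσ := by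
    intro h
    apply hne
    funext n
    rw [← hθσa, ← h]
  have hA : ∀ x, ∑ h, (θσ : N → ℂ) h⁻¹ * (θ : N → ℂ) (h * x) = 0 := by
    intro x
    rw [irr_sum_classfn θ (fun h => (θσ : N → ℂ) h⁻¹) (fun g h => by
      beta_reduce
      have : (h * g * h⁻¹)⁻¹ = h * g⁻¹ * h⁻¹ := by group
      rw [this, irr_conj]) x]
    have := irr_orth' θ θσ
    rw [if_neg hne'] at this
    have h2 : ∑ h, (θσ : N → ℂ) h⁻¹ * (θ : N → ℂ) h = 0 := by
      rw [← this]
      exact Finset.sum_congr rfl fun h _ => mul_comm _ _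
    rw [h2, zero_mul, zero_div]
  have hB : ∀ y, ∑ h, (θ : N → ℂ) h⁻¹ * (θ : N → ℂ) (h * y)
      = (Nat.card N : ℂ) * (θ : N → ℂ) y / (θ : N → ℂ) 1 := by
    intro y
    rw [irr_sum_classfn θ (fun h => (θ : N → ℂ) h⁻¹) (fun g h => by
      beta_reduce
      have : (h * g * h⁻¹)⁻¹ = h * g⁻¹ * h⁻¹ := by group
      rw [this, irr_conj]) y]
    have := irr_orth' θ θ
    rw [if_pos rfl] at this
    have h2 : ∑ h, (θ : N → ℂ) h⁻¹ * (θ : N → ℂ) h = (Nat.card N : ℂ) := by
      rw [← this]
      exact Finset.sum_congr rfl fun h _ => mul_comm _ _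
    rw [h2]
  have h1 : ∑ m, ∑ h, (θ : N → ℂ) h⁻¹ * (θ : N → ℂ) (h * (σ m * m⁻¹)) = 0 := by
    rw [Finset.sum_comm]
    have h2 : ∀ h : N, ∑ m, (θ : N → ℂ) h⁻¹ * (θ : N → ℂ) (h * (σ m * m⁻¹))
        = ∑ m, (θ : N → ℂ) h⁻¹ * (θ : N → ℂ) (σ.symm h * (σ m * m⁻¹)) := by
      intro h
      symm
      apply Fintype.sum_equiv (Equiv.mulLeft (σ.symm h⁻¹))
      intro m
      congr 1
      rw [Equiv.coe_mulLeft, map_mul, MulEquiv.apply_symm_apply, irr_mul_comm]
      congr 1
      rw [mul_inv_rev, map_inv, inv_inv]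
      group
    rw [Finset.sum_congr rfl fun h _ => h2 h, Finset.sum_comm]
    apply Finset.sum_eq_zero
    intro m _
    rw [← hA (σ m * m⁻¹)]
    symm
    apply Fintype.sum_equiv σ.toEquiv
    intro h
    rw [hθσa, map_inv]
    simp
  simp only [hB] at h1
  rw [← Finset.sum_div, ← Finset.mul_sum] at h1
  have hN : (Nat.card N : ℂ) ≠ 0 := card_ne_zero
  have h1' := (div_eq_zero_iff.mp h1).resolve_right (irr_one_ne_zero θ)
  exact (mul_eq_zero.mp h1').resolve_left hN

end twisted

variable {M : Ideal AlgInt} {p : ℕ}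
variable {G N : Type*} [Group G] [Group N] [Fintype G] [Fintype N] (ι : N →* G)

theorem sum_orb_mul' (y : G) (g : G → ℂ) :
    ∑ x, orb ι y x * g x
      = (kk ι y : ℂ) * ((Nat.card N : ℂ)⁻¹ * ∑ m : N, g (ι m * y * (ι m)⁻¹)) := by
  have hN : (Nat.card N : ℂ) ≠ 0 := card_ne_zero
  set gb : G → ℂ := fun x => (Nat.card N : ℂ)⁻¹ * ∑ m : N, g (ι m * x * (ι m)⁻¹) with hgb
  have hinv : Inv ι gb := by
    intro n x
    simp only [hgb]
    congr 1
    apply Fintype.sum_equiv (Equiv.mulRight n)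
    intro m
    rw [Equiv.coe_mulRight, map_mul]
    congr 1
    group
  rw [show (kk ι y : ℂ) * ((Nat.card N : ℂ)⁻¹ * ∑ m : N, g (ι m * y * (ι m)⁻¹))
    = (kk ι y : ℂ) * gb y from rfl, ← sum_orb_mul ι y hinv]
  simp only [hgb]
  have h1 : ∀ x, orb ι y x * ((Nat.card N : ℂ)⁻¹ * ∑ m : N, g (ι m * x * (ι m)⁻¹))
      = (Nat.card N : ℂ)⁻¹ * ∑ m : N, orb ι y x * g (ι m * x * (ι m)⁻¹) := by
    intro x
    rw [Finset.mul_sum, Finset.mul_sum, Finset.mul_sum]
    apply Finset.sum_congr rfl
    intro m _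
    ring
  rw [Finset.sum_congr rfl fun x _ => h1 x, ← Finset.mul_sum, Finset.sum_comm]
  have h2 : ∀ m : N, ∑ x, orb ι y x * g (ι m * x * (ι m)⁻¹) = ∑ x, orb ι y x * g x := by
    intro m
    apply Fintype.sum_equiv (MulAut.conj (ι m)).toEquiv
    intro x
    have e1 : (MulAut.conj (ι m)).toEquiv x = ι m * x * (ι m)⁻¹ := by simp [MulAut.conj_apply]
    rw [e1, orb_inv]
  rw [Finset.sum_congr rfl fun m _ => h2 m, Finset.sum_const, Finset.card_univ, nsmul_eq_mul,
    ← Nat.card_eq_fintype_card, ← mul_assoc, inv_mul_cancel₀ hN, one_mul]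

theorem kk_inv (d : G) : kk ι d⁻¹ = kk ι d := by
  unfold kk
  have : Subgroup.centralizer ({d⁻¹} : Set G) = Subgroup.centralizer ({d} : Set G) := by
    ext x
    rw [Subgroup.mem_centralizer_singleton_iff, Subgroup.mem_centralizer_singleton_iff]
    constructor
    · intro h
      have : Commute x d⁻¹ := h
      exact (Commute.inv_right_iff.mp this)
    · intro h
      have : Commute x d := h
      exact this.inv_right
  rw [this]

section congruence

variable (hι : Function.Injective ι)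
  (c : G →* MulAut N) (hc : ∀ (g : G) (n : N), ι (c g n) = g * ι n * g⁻¹)

include hι hc

theorem om_conv_congr [M.IsPrime] (θ : IrrCharacter N) (hθ : θ ∈ principalBlock M N)
    {a b : G → ℂ} {g h : G}
    (ha : IsGr ι a g) (hb : IsGr ι b h) (m : N) (hgh : g * h = ι m) :
    MemLocalIdeal M (om (fun w => conv a b (ι w)) θ - eps a * eps b) := by
  rw [← eps_conv]
  have hf := IsGr.conv ι c hc ha hb
  set f := conv a b with hfdef
  set F : N → ℂ := fun w => f (ι w) with hF
  have hcl : IsClassFunction N F := by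
    intro w k
    simp only [hF]
    rw [map_mul, map_mul, map_inv, hf.inv]
  have hloc : ∀ w, MemLocalRing M (F w) := by
    intro w
    obtain ⟨z, hz⟩ := hf.int
    simp only [hF]
    rw [hz]
    exact memLocalRing_intCast _
  have hsupp : ∀ x, x ∉ Set.range ι → f x = 0 := by
    intro x hx
    by_contra hne
    obtain ⟨n, hn⟩ := hf.supp x hne
    apply hx
    refine ⟨m * n, ?_⟩
    rw [map_mul, ← hgh, hn]
  have h2 : eps f = om F (Cfsg.Agent.Lib.Helper82Linear.irrOne N) := by
    unfold om eps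
    symm
    apply Fintype.sum_of_injective ι hι
    · intro x hx
      exact hsupp x hx
    · intro w
      simp [Cfsg.Agent.Lib.Helper82Linear.irrOne, hF]
  rw [h2]
  have := om_congr (M := M) hcl hloc (χ := Cfsg.Agent.Lib.Helper82Linear.irrOne N) (ψ := θ) hθ
  have h3 := memLocalIdeal_neg this
  rwa [neg_sub] at h3

theorem invariant_of_good (hM : IsPModular p M) (θ : IrrCharacter N)
    (hθ : θ ∈ principalBlock M N) {d : G} (hd : ¬ p ∣ kk ι d) (n : N) :
    (θ : N → ℂ) (c d n) = (θ : N → ℂ) n := by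
  classical
  have := hM.2.1.isPrime
  by_contra hcon
  have hne : (fun n => (θ : N → ℂ) (c d n)) ≠ (θ : N → ℂ) := fun h => hcon (congrFun h n)
  have h0 := sum_twisted_eq_zero θ (c d) hne
  have h1 := om_conv_congr (M := M) ι hι c hc θ hθ (isGr_orb ι c hc d) (isGr_orb ι c hc d⁻¹) 1
    (by rw [mul_inv_cancel, map_one])
  have hz : om (fun w => conv (orb ι d) (orb ι d⁻¹) (ι w)) θ = 0 := by
    unfold om
    rw [← Finset.sum_div]
    have : ∑ w, conv (orb ι d) (orb ι d⁻¹) (ι w) * (θ : N → ℂ) w = 0 := by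
      unfold conv
      simp only [Finset.sum_mul]
      rw [Finset.sum_comm]
      set Ψ : G → ℂ := fun h => ∑ w, orb ι d⁻¹ (h⁻¹ * ι w) * (θ : N → ℂ) w with hΨ
      have hΨinv : Inv ι Ψ := by
        intro k h
        simp only [hΨ]
        symm
        apply Fintype.sum_equiv (MulAut.conj k).toEquiv
        intro w
        have e1 : (MulAut.conj k).toEquiv w = k * w * k⁻¹ := by simp [MulAut.conj_apply]
        rw [e1, irr_conj]
        congr 1
        have : (ι k * h * (ι k)⁻¹)⁻¹ * ι (k * w * k⁻¹) = ι k * (h⁻¹ * ι w) * (ι k)⁻¹ := by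
          rw [map_mul, map_mul, map_inv]
          group
        rw [this, orb_inv]
      have e2 : ∀ h, ∑ w, orb ι d h * orb ι d⁻¹ (h⁻¹ * ι w) * (θ : N → ℂ) w = orb ι d h * Ψ h := by
        intro h
        simp only [hΨ]
        rw [Finset.mul_sum]
        exact Finset.sum_congr rfl fun w _ => by ring
      rw [Finset.sum_congr rfl fun h _ => e2 h, sum_orb_mul ι d hΨinv]
      have e3 : Ψ d = ∑ x, orb ι d⁻¹ x * (∑ w, if ι w = d * x then (θ : N → ℂ) w else 0) := by
        simp only [hΨ, Finset.mul_sum]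
        rw [Finset.sum_comm]
        apply Finset.sum_congr rfl
        intro w _
        rw [Finset.sum_eq_single (d⁻¹ * ι w)]
        · rw [if_pos (by group)]
        · intro x _ hx
          rw [if_neg, mul_zero]
          intro h
          apply hx
          rw [h]
          group
        · intro h
          exact absurd (Finset.mem_univ _) h
      rw [e3, sum_orb_mul']
      have e4 : ∀ m : N, (∑ w, if ι w = d * (ι m * d⁻¹ * (ι m)⁻¹) then (θ : N → ℂ) w else 0)
          = (θ : N → ℂ) (c d m * m⁻¹) := by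
        intro m
        rw [Finset.sum_eq_single (c d m * m⁻¹)]
        · rw [if_pos]
          rw [map_mul, hc, map_inv]
          group
        · intro w _ hw
          rw [if_neg]
          intro h
          apply hw
          apply hι
          rw [h, map_mul, hc, map_inv]
          group
        · intro h
          exact absurd (Finset.mem_univ _) h
      rw [Finset.sum_congr rfl fun m _ => e4 m, h0]
      ring
    rw [this, zero_div]
  rw [hz, zero_sub, eps_orb, eps_orb, kk_inv] at h1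
  have h2 := memLocalIdeal_neg h1
  rw [neg_neg, ← Nat.cast_mul, memLocalIdeal_natCast_iff hM] at h2
  rcases (Nat.Prime.dvd_mul hM.1).mp h2 with h | h <;> exact hd h

theorem invariant (hM : IsPModular p M) (θ : IrrCharacter N)
    (hθ : θ ∈ principalBlock M N)
    (hgood : ∀ g : G, ∃ (d : G) (n : N), d = g * ι n ∧ ¬ p ∣ kk ι d) (g : G) (n : N) :
    (θ : N → ℂ) (c g n) = (θ : N → ℂ) n := by
  obtain ⟨d, m, hd, hk⟩ := hgood g
  have h1 := invariant_of_good ι hι c hc hM θ hθ hk (m⁻¹ * n * m)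
  have h2 : c d (m⁻¹ * n * m) = c g n := by
    apply hι
    rw [hc, hc, hd, map_mul, map_mul, map_inv]
    group
  rw [h2] at h1
  rw [h1]
  have := irr_conj θ n m⁻¹
  rwa [inv_inv] at this

end congruence

end Cfsg.Agent.Lib.Helper79Graded3
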