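import Mathlib
import Cfsg.Prelude.Def_Blocks
import Cfsg.Agent.Lib.Helper79Graded3
import Cfsg.Agent.Lib.Helper80Transport
import Cfsg.Agent.Lib.Helper14PGroup
import Cfsg.Agent.Lib.Helper19Gal2
import Cfsg.Agent.Lib.Helper21Cover4
import Cfsg.Agent.S0886
import Cfsg.Agent.S0888

/-!
# The Alperin-Dade restriction theorem for principal blocks (character version)
-/

set_option autoImplicit false
set_option linter.unusedSectionVars false

namespace Cfsg.Agent.Lib.Helper79AD

open Cfsg Cfsg.Agent.Lib.Helper81Local Cfsg.Agent.Lib.Helper81Base Cfsg.Agent.Lib.Helper81Block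
open Cfsg.Agent.Lib.Helper79Graded Cfsg.Agent.Lib.Helper79Graded2 Cfsg.Agent.Lib.Helper79Graded3

universe u v

variable {M : Ideal AlgInt} {p : ℕ}

section basic

variable {G N : Type*} [Group G] [Group N] [Fintype G] [Fintype N] (ι : N →* G)
  (hM : IsPModular p M) (hι : Function.Injective ι)
  (c : G →* MulAut N) (hc : ∀ (g : G) (n : N), ι (c g n) = g * ι n * g⁻¹)

include hM hc in
theorem mem_principal_of_cong (χ : IrrCharacter G)
    (hres : IsIrrCharacter N (fun n => (χ : G → ℂ) (ι n)))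
    (hcong : ∀ y : G, MemLocalIdeal M ((kk ι y : ℂ) * ((χ : G → ℂ) y / (χ : G → ℂ) 1 - 1))) :
    χ ∈ principalBlock M G := by
  obtain ⟨ξ, hξ1, hξ2⟩ := restrict_mem_principal ι hM c hc χ hres hcong ⊤
    (fun n => Subgroup.mem_top _)
  intro g
  have h3 := hξ1 ⟨g, Subgroup.mem_top g⟩
  have e := Cfsg.Agent.Lib.Helper80Transport.centralChar_comp (Subgroup.topEquiv (G := G))
  have e1 := e (ξ : (⊤ : Subgroup G) → ℂ) ⟨g, Subgroup.mem_top g⟩
  have e2 := e (fun _ => (1 : ℂ)) ⟨g, Subgroup.mem_top g⟩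
  rw [← e1, ← e2] at h3
  have e3 : ((ξ : (⊤ : Subgroup G) → ℂ) ∘ (Subgroup.topEquiv (G := G)).symm) = (χ : G → ℂ) := by
    funext x
    exact hξ2 _
  rw [e3] at h3
  exact h3

include hM hι hc in
theorem exists_principal_ext (ψ : IrrCharacter G) (θ : IrrCharacter N)
    (hθ : θ ∈ principalBlock M N) (hres : ∀ n, (ψ : G → ℂ) (ι n) = (θ : N → ℂ) n)
    (hgood : ∀ g : G, ∃ (d : G) (n : N), d = g * ι n ∧ ¬ p ∣ kk ι d) :
    ∃ χ ∈ principalBlock M G, ∀ n, (χ : G → ℂ) (ι n) = (θ : N → ℂ) n := by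
  obtain ⟨χ, h1, h2⟩ := exists_twist ι hM hι c hc ψ θ hθ hres hgood
  have hres' : IsIrrCharacter N (fun n => (χ : G → ℂ) (ι n)) := by
    have : (fun n => (χ : G → ℂ) (ι n)) = (θ : N → ℂ) := funext h1
    rw [this]
    exact θ.2
  exact ⟨χ, mem_principal_of_cong ι hM c hc χ hres' h2, h1⟩

end basic

theorem kk_codRestrict {G N : Type*} [Group G] [Group N] (ι : N →* G) (J : Subgroup G) (hJ : ∀ n, ι n ∈ J) (y : J) :
    kk (ι.codRestrict J hJ) y = kk ι (y : G) := by
  have h1 : (Subgroup.centralizer ({(y : G)} : Set G)).comap ι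
      = (Subgroup.centralizer ({y} : Set J)).comap (ι.codRestrict J hJ) := by
    ext n
    rw [Subgroup.mem_comap, Subgroup.mem_comap, Subgroup.mem_centralizer_singleton_iff,
      Subgroup.mem_centralizer_singleton_iff, Subtype.ext_iff]
    rfl
  unfold kk
  rw [h1]

theorem index_dvd_comap_mul {A B : Type*} [Group A] [Group B] (f : A →* B) (C : Subgroup B) :
    C.index ∣ (C.comap f).index * f.range.index := by
  rw [Subgroup.index_comap, ← Subgroup.inf_relIndex_right,
    Subgroup.relIndex_mul_index inf_le_right]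
  exact Subgroup.index_dvd_of_le inf_le_left

/-- one step: a cyclic quotient. -/
theorem step {H : Type*} [Group H] [Finite H] (hM : IsPModular p M) (H₁ : Subgroup H)
    [hn : H₁.Normal] (hcyc : IsCyclic (H ⧸ H₁))
    (θ₁ : IrrCharacter H₁) (hθ₁ : θ₁ ∈ principalBlock M H₁)
    (hgood : ∀ g : H, ∃ (d : H) (n : H₁), d = g * H₁.subtype n ∧ ¬ p ∣ kk H₁.subtype d) :
    ∃ χ ∈ principalBlock M H, ∀ n : H₁, (χ : H → ℂ) n = (θ₁ : H₁ → ℂ) n := by
  have := Fintype.ofFinite H
  have := Fintype.ofFinite H₁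
  have hc : ∀ (g : H) (n : H₁), H₁.subtype (MulAut.conjNormal g n) = g * H₁.subtype n * g⁻¹ :=
    fun g n => MulAut.conjNormal_apply g n
  have hinv := invariant H₁.subtype H₁.subtype_injective MulAut.conjNormal hc hM θ₁ hθ₁ hgood
  obtain ⟨ψ, hψ, hψ2⟩ := Cfsg.Agent.S0886.result H₁ hcyc (θ₁ : H₁ → ℂ) θ₁.2 (by
    intro g n
    rw [← hinv g n]
    congr 1)
  exact exists_principal_ext H₁.subtype hM H₁.subtype_injective MulAut.conjNormal hc ⟨ψ, hψ⟩ θ₁ hθ₁
    hψ2 hgood

/-- a tower of normal subgroups of prime index `q ≠ p`. -/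
theorem tower {N : Type v} [Group N] [Finite N] (hM : IsPModular p M) (θ : IrrCharacter N)
    (hθ : θ ∈ principalBlock M N) (q : ℕ) [hq : Fact q.Prime] (hqp : q ≠ p) (k : ℕ) :
    ∀ (H : Type u) [Group H] [Finite H] (ι : N →* H) (_ : Function.Injective ι)
      (c : H →* MulAut N) (_ : ∀ (g : H) (n : N), ι (c g n) = g * ι n * g⁻¹)
      (_ : ι.range.index = q ^ k)
      (_ : ∀ g : H, ∃ (d : H) (n : N), d = g * ι n ∧ ¬ p ∣ kk ι d),
      ∃ χ ∈ principalBlock M H, ∀ n, (χ : H → ℂ) (ι n) = (θ : N → ℂ) n := by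
  induction k with
  | zero =>
    intro H _ _ ι hι c hc hidx hgood
    rw [pow_zero, Subgroup.index_eq_one, MonoidHom.range_eq_top] at hidx
    set e : N ≃* H := MulEquiv.ofBijective ι ⟨hι, hidx⟩ with he
    refine ⟨Cfsg.Agent.Lib.Helper82Quot.irrCongr e θ, ?_, ?_⟩
    · exact Cfsg.Agent.Lib.Helper80Transport.sameBlock_comp e hθ
    · intro n
      rw [Cfsg.Agent.Lib.Helper82Quot.irrCongr_apply]
      have : e.symm (ι n) = n := by
        rw [MulEquiv.symm_apply_eq]
        rfl
      rw [this]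
  | succ k ih =>
    intro H _ _ ι hι c hc hidx hgood
    have hp : p.Prime := hM.1
    have hn : ι.range.Normal := Cfsg.Agent.Lib.Helper19Det.range_normal ι c hc
    have hcard : Nat.card (H ⧸ ι.range) = q ^ (k + 1) := hidx
    have hD : IsPGroup q (H ⧸ ι.range) := IsPGroup.of_card hcard
    have hnt : Nontrivial (H ⧸ ι.range) := by
      rw [← Finite.one_lt_card_iff_nontrivial, hcard]
      exact Nat.one_lt_pow (Nat.succ_ne_zero k) hq.out.one_lt
    obtain ⟨K, hKn, hKi⟩ := Cfsg.Agent.Lib.Helper14PGroup.exists_normal_index_p hD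
    set H₁ : Subgroup H := K.comap (QuotientGroup.mk' ι.range) with hH₁
    have hH₁n : H₁.Normal := hKn.comap _
    have hH₁i : H₁.index = q := by
      rw [hH₁, Subgroup.index_comap_of_surjective _ (QuotientGroup.mk'_surjective _), hKi]
    have hle : ι.range ≤ H₁ := by
      intro x hx
      rw [hH₁, Subgroup.mem_comap]
      have : QuotientGroup.mk' ι.range x = 1 := (QuotientGroup.eq_one_iff x).mpr hx
      rw [this]
      exact one_mem K
    have hJ : ∀ n, ι n ∈ H₁ := fun n => hle ⟨n, rfl⟩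
    set ι₁ : N →* H₁ := ι.codRestrict H₁ hJ with hι₁
    have hι₁inj : Function.Injective ι₁ := by
      intro a b hab
      apply hι
      exact congrArg Subtype.val hab
    have hc₁ : ∀ (g : H₁) (n : N), ι₁ ((c.comp H₁.subtype) g n) = g * ι₁ n * g⁻¹ := by
      intro g n
      apply Subtype.ext
      exact hc (g : H) n
    have hrange : ι₁.range = ι.range.subgroupOf H₁ := by
      ext x
      rw [Subgroup.mem_subgroupOf]
      constructor
      · rintro ⟨n, rfl⟩
        exact ⟨n, rfl⟩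
      · rintro ⟨n, hn'⟩
        exact ⟨n, Subtype.ext hn'⟩
    have hidx₁ : ι₁.range.index = q ^ k := by
      rw [hrange]
      have h1 : ι.range.relIndex H₁ * H₁.index = ι.range.index := Subgroup.relIndex_mul_index hle
      rw [hH₁i, hidx, pow_succ] at h1
      exact Nat.eq_of_mul_eq_mul_right hq.out.pos h1
    have hgood₁ : ∀ g : H₁, ∃ (d : H₁) (n : N), d = g * ι₁ n ∧ ¬ p ∣ kk ι₁ d := by
      intro g
      obtain ⟨d, n, hd, hk⟩ := hgood (g : H)
      refine ⟨g * ι₁ n, n, rfl, ?_⟩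
      rw [hι₁, kk_codRestrict]
      have : ((g * ι.codRestrict H₁ hJ n : H₁) : H) = d := by
        rw [hd]
        rfl
      rw [this]
      exact hk
    obtain ⟨χ₁, hχ₁, hχ₁'⟩ := ih H₁ ι₁ hι₁inj (c.comp H₁.subtype) hc₁ hidx₁ hgood₁
    have hgood' : ∀ g : H, ∃ (d : H) (n : H₁), d = g * H₁.subtype n ∧ ¬ p ∣ kk H₁.subtype d := by
      intro g
      obtain ⟨d, n, hd, hk⟩ := hgood g
      refine ⟨d, ι₁ n, hd, ?_⟩
      intro hdv
      have h1 := index_dvd_comap_mul ι₁ ((Subgroup.centralizer ({d} : Set H)).comap H₁.subtype)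
      rw [Subgroup.comap_comap, hidx₁] at h1
      have h2 : H₁.subtype.comp ι₁ = ι := by
        ext n
        rfl
      rw [h2] at h1
      rcases (Nat.Prime.dvd_mul hp).mp (hdv.trans h1) with h | h
      · exact hk h
      · have := hp.dvd_of_dvd_pow h
        exact hqp ((Nat.prime_dvd_prime_iff_eq hp hq.out).mp this).symm
    have hcyc : IsCyclic (H ⧸ H₁) := by
      have : Nat.card (H ⧸ H₁) = q := hH₁i
      exact isCyclic_of_prime_card this
    obtain ⟨χ, hχ, hχ'⟩ := step hM H₁ hcyc χ₁ hχ₁ hgood'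
    refine ⟨χ, hχ, fun n => ?_⟩
    rw [← hχ₁' n, ← hχ' (ι₁ n)]
    rfl

/-- existence of an extension in the principal block. -/
theorem exists_ext {G : Type u} [Group G] [Finite G] (hM : IsPModular p M) (N : Subgroup G)
    [hN : N.Normal] (hidx : ¬ p ∣ N.index)
    (hgood : ∀ g : G, ∃ (d : G) (n : N), d = g * N.subtype n ∧ ¬ p ∣ kk N.subtype d)
    (θ : IrrCharacter N) (hθ : θ ∈ principalBlock M N) :
    ∃ χ ∈ principalBlock M G, ∀ n : N, (χ : G → ℂ) n = (θ : N → ℂ) n := by
  have := Fintype.ofFinite G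
  have := Fintype.ofFinite N
  have hp : p.Prime := hM.1
  have hc : ∀ (g : G) (n : N), N.subtype (MulAut.conjNormal g n) = g * N.subtype n * g⁻¹ :=
    fun g n => MulAut.conjNormal_apply g n
  have hinv := invariant N.subtype N.subtype_injective MulAut.conjNormal hc hM θ hθ hgood
  obtain ⟨ψ, hψ, hψ2⟩ := Cfsg.Agent.S0888.result N (θ : N → ℂ) θ.2 (by
    intro g n
    rw [← hinv g n]
    congr 1) (by
    intro q hq
    by_cases hqp : q = p
    · subst hqp
      refine ⟨N, le_refl N, (θ : N → ℂ), ?_, ⟨0, ?_⟩, θ.2, fun n => rfl⟩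
      · exact ((Nat.Prime.coprime_iff_not_dvd hq).mpr hidx).symm
      · rw [Subgroup.relIndex_self, pow_zero]
    · have : Fact q.Prime := ⟨hq⟩
      obtain ⟨S⟩ : Nonempty (Sylow q (G ⧸ N)) := inferInstance
      set Q : Subgroup G := (S : Subgroup (G ⧸ N)).comap (QuotientGroup.mk' N) with hQ
      have hNQ : N ≤ Q := by
        intro x hx
        rw [hQ, Subgroup.mem_comap]
        have : QuotientGroup.mk' N x = 1 := (QuotientGroup.eq_one_iff x).mpr hx
        rw [this]
        exact one_mem _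
      have hQi : Q.index = (S : Subgroup (G ⧸ N)).index := by
        rw [hQ, Subgroup.index_comap_of_surjective _ (QuotientGroup.mk'_surjective _)]
      obtain ⟨k, hk⟩ := IsPGroup.iff_card.mp S.2
      have hrel : N.relIndex Q = q ^ k := by
        have h1 : N.relIndex Q * Q.index = N.index := Subgroup.relIndex_mul_index hNQ
        have h2 := (S : Subgroup (G ⧸ N)).card_mul_index
        rw [hk] at h2
        have h3 : N.index = Nat.card (G ⧸ N) := rfl
        rw [hQi, h3, ← h2] at h1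
        exact Nat.eq_of_mul_eq_mul_right (Nat.pos_of_ne_zero Subgroup.index_ne_zero_of_finite) h1
      have hJ : ∀ n : N, N.subtype n ∈ Q := fun n => hNQ n.2
      set ι₁ : N →* Q := N.subtype.codRestrict Q hJ with hι₁
      have hι₁inj : Function.Injective ι₁ := by
        intro a b hab
        apply N.subtype_injective
        exact congrArg (fun x : Q => (x : G)) hab
      have hc₁ : ∀ (g : Q) (n : N),
          ι₁ (((MulAut.conjNormal (H := N)).comp Q.subtype) g n) = g * ι₁ n * g⁻¹ := by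
        intro g n
        apply Subtype.ext
        exact hc (g : G) n
      have hrange : ι₁.range = N.subgroupOf Q := by
        ext x
        rw [Subgroup.mem_subgroupOf]
        constructor
        · rintro ⟨n, rfl⟩
          exact n.2
        · intro hx
          exact ⟨⟨x, hx⟩, Subtype.ext rfl⟩
      have hidx₁ : ι₁.range.index = q ^ k := by
        rw [hrange]
        exact hrel
      have hgood₁ : ∀ g : Q, ∃ (d : Q) (n : N), d = g * ι₁ n ∧ ¬ p ∣ kk ι₁ d := by
        intro g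
        obtain ⟨d, n, hd, hk⟩ := hgood (g : G)
        refine ⟨g * ι₁ n, n, rfl, ?_⟩
        rw [hι₁, kk_codRestrict]
        have : ((g * N.subtype.codRestrict Q hJ n : Q) : G) = d := by
          rw [hd]
          rfl
        rw [this]
        exact hk
      obtain ⟨χ₁, -, hχ₁'⟩ := tower hM θ hθ q hqp k Q ι₁ hι₁inj _ hc₁ hidx₁ hgood₁
      refine ⟨Q, hNQ, (χ₁ : Q → ℂ), ?_, ⟨k, hrel⟩, χ₁.2, fun n => hχ₁' n⟩
      rw [hQi]
      exact ((Nat.Prime.coprime_iff_not_dvd hq).mpr S.not_dvd_index).symm)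
  exact exists_principal_ext N.subtype hM N.subtype_injective MulAut.conjNormal hc ⟨ψ, hψ⟩ θ hθ
    hψ2 hgood

theorem cong_of_good {G : Type*} [Group G] (hM : IsPModular p M) (χ : IrrCharacter G)
    (hχ : χ ∈ principalBlock M G) {d : G}
    (hd : ¬ p ∣ (Subgroup.centralizer ({d} : Set G)).index) :
    MemLocalIdeal M ((χ : G → ℂ) d / (χ : G → ℂ) 1 - 1) := by
  have h := hχ d
  apply cancel_nat hM hd
  have h2 := memLocalIdeal_neg h
  convert h2 using 1
  unfold centralChar
  simp only [div_one, mul_one]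
  ring

/-- two principal block characters over the same `θ`, one of them an extension, are equal. -/
theorem key {G : Type*} [Group G] [Finite G] (hM : IsPModular p M) (N : Subgroup G)
    [hN : N.Normal] (hidx : ¬ p ∣ N.index)
    (hgood : ∀ g : G, ∃ (d : G) (n : N), d = g * N.subtype n ∧
      ¬ p ∣ (Subgroup.centralizer ({d} : Set G)).index)
    (χ₀ χ : IrrCharacter G) (h₀ : χ₀ ∈ principalBlock M G) (h : χ ∈ principalBlock M G)
    (θ : IrrCharacter N) (hres : ∀ n : N, (χ₀ : G → ℂ) n = (θ : N → ℂ) n)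
    (hover : ∀ [Fintype N], classInner (fun n : N => (χ : G → ℂ) n) (θ : N → ℂ) ≠ 0) : χ = χ₀ := by
  have := Fintype.ofFinite G
  have := Fintype.ofFinite N
  have := Fintype.ofFinite (G ⧸ N)
  have := hM.2.1.isPrime
  have hc : ∀ (g : G) (n : N), N.subtype (MulAut.conjNormal g n) = g * N.subtype n * g⁻¹ :=
    fun g n => MulAut.conjNormal_apply g n
  obtain ⟨β, ⟨hβ, hβN⟩, hβχ⟩ := (Cfsg.Agent.Lib.Helper19Gal2.gallagher N.subtype
    N.subtype_injective MulAut.conjNormal hc θ.2 χ₀.2 hres).surjOn ⟨χ.2, hover⟩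
  obtain ⟨ψ, hψ⟩ := Cfsg.Agent.Lib.Helper82Quot.exists_deflate N ⟨β, hβ⟩
    (fun n hn => hβN ⟨n, hn⟩)
  have hβψ : ∀ g, β g = (ψ : G ⧸ N → ℂ) (g : G ⧸ N) := fun g => by
    rw [← Cfsg.Agent.Lib.Helper82Quot.inflate_apply, hψ]
  have hχβ : ∀ g, (χ : G → ℂ) g = β g * (χ₀ : G → ℂ) g := fun g => by
    rw [← hβχ]
    rfl
  have hcong : ∀ x : G ⧸ N, MemLocalIdeal M ((ψ : G ⧸ N → ℂ) x / (ψ : G ⧸ N → ℂ) 1 - 1) := by
    intro x
    obtain ⟨g, rfl⟩ := QuotientGroup.mk_surjective x
    obtain ⟨d, n, hd, hk⟩ := hgood g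
    have e1 : ((g : G) : G ⧸ N) = (d : G ⧸ N) := by
      rw [hd]
      exact (QuotientGroup.mk_mul_of_mem g n.2).symm
    have hs := cong_of_good hM χ₀ h₀ hk
    have hts := cong_of_good hM χ h hk
    have hs1 : MemLocalRing M ((χ₀ : G → ℂ) d / (χ₀ : G → ℂ) 1) := by
      have := memLocalRing_add (MemLocalIdeal.memLocalRing hs) (memLocalRing_natCast (M := M) 1)
      simpa using this
    have hs2 : ¬ MemLocalIdeal M ((χ₀ : G → ℂ) d / (χ₀ : G → ℂ) 1) := fun h' =>
      not_memLocalIdeal_one (M := M) (by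
        have := memLocalIdeal_sub h' hs
        simpa using this)
    have hs0 : (χ₀ : G → ℂ) d / (χ₀ : G → ℂ) 1 ≠ 0 := by
      intro h0
      apply hs2
      rw [h0]
      exact memLocalIdeal_zero
    have hs3 := memLocalRing_inv hs1 hs2
    have := memLocalIdeal_mul hs3 (memLocalIdeal_sub hts hs)
    convert this using 1
    rw [e1, ← hβψ, hχβ d, hχβ 1]
    have e2 : (ψ : G ⧸ N → ℂ) 1 = β 1 := by
      rw [hβψ]
      rfl
    rw [e2]
    have hb1 : β 1 ≠ 0 := irr_one_ne_zero ⟨β, hβ⟩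
    have hc1 : (χ₀ : G → ℂ) 1 ≠ 0 := irr_one_ne_zero χ₀
    have hcd : (χ₀ : G → ℂ) d ≠ 0 := by
      intro h0
      apply hs0
      rw [h0, zero_div]
    field_simp
    ring
  by_cases hψ1 : ψ = Cfsg.Agent.Lib.Helper82Linear.irrOne (G ⧸ N)
  · apply Subtype.ext
    funext g
    rw [hχβ, hβψ, hψ1]
    exact one_mul _
  · exfalso
    have h1 := irr_orth' ψ (Cfsg.Agent.Lib.Helper82Linear.irrOne (G ⧸ N))
    rw [if_neg hψ1] at h1
    have h1' : ∑ x, (ψ : G ⧸ N → ℂ) x = 0 := by
      rw [← h1]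
      exact Finset.sum_congr rfl fun x _ => (mul_one _).symm
    have h2 := memLocalIdeal_sum (M := M) Finset.univ
      (fun x => (ψ : G ⧸ N → ℂ) x / (ψ : G ⧸ N → ℂ) 1 - 1) (fun x _ => hcong x)
    rw [Finset.sum_sub_distrib, ← Finset.sum_div, h1', zero_div, zero_sub] at h2
    have h3 := memLocalIdeal_neg h2
    rw [neg_neg, Finset.sum_const, Finset.card_univ, nsmul_eq_mul, mul_one,
      memLocalIdeal_natCast_iff hM, ← Nat.card_eq_fintype_card] at h3
    exact hidx h3

/-- constituents of restrictions of principal block characters are in the principal block. -/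
theorem under_mem {G : Type*} [Group G] [Finite G] (hM : IsPModular p M) (N : Subgroup G)
    [hN : N.Normal]
    (hgood : ∀ g : G, ∃ (d : G) (n : N), d = g * N.subtype n ∧ ¬ p ∣ kk N.subtype d)
    (χ : IrrCharacter G) (h : χ ∈ principalBlock M G) :
    ∃ θ ∈ principalBlock M N,
      ∀ [Fintype N], classInner (fun n : N => (χ : G → ℂ) n) (θ : N → ℂ) ≠ 0 := by
  have := Fintype.ofFinite G
  have iN := Fintype.ofFinite N
  have := hM.2.1.isPrime
  have hc : ∀ (g : G) (n : N), N.subtype (MulAut.conjNormal g n) = g * N.subtype n * g⁻¹ :=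
    fun g n => MulAut.conjNormal_apply g n
  obtain ⟨θ, hθ⟩ := Cfsg.Agent.Lib.Helper21Cover.exists_under (N := N) χ
  have hB : IsPBlock M (principalBlock M G) := ⟨Cfsg.Agent.Lib.Helper82Linear.irrOne G, rfl⟩
  have hb : IsPBlock M (principalBlock M N) := ⟨Cfsg.Agent.Lib.Helper82Linear.irrOne N, rfl⟩
  have h1 := Cfsg.Agent.Lib.Helper21Cover4.mem_orb_of_mem hN hB hb
    ⟨Cfsg.Agent.Lib.Helper82Linear.irrOne G, sameBlock_refl _,
      Cfsg.Agent.Lib.Helper82Linear.irrOne N, sameBlock_refl _, by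
        have := Cfsg.Agent.Lib.Helper4Char.classInner_irr_self
          (Cfsg.Agent.Lib.Helper82Linear.irrOne N).2
        intro h0
        exact one_ne_zero (this.symm.trans h0)⟩ h hθ
  obtain ⟨g, θ', hθ', rfl⟩ := (Cfsg.Agent.Lib.Helper21Cover.mem_orb hN _ _).1 h1
  have hinv := invariant N.subtype N.subtype_injective MulAut.conjNormal hc hM θ' hθ' hgood
  have e : Cfsg.Agent.Lib.Helper21Cover.cjI hN θ' g = θ' := by
    apply Subtype.ext
    funext n
    rw [Cfsg.Agent.Lib.Helper21Cover.cjI_apply, ← hinv g n]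
    congr 1
  rw [e] at hθ
  refine ⟨θ', hθ', ?_⟩
  intro iN'
  have : iN' = iN := Subsingleton.elim _ _
  rw [this]
  exact hθ

end Cfsg.Agent.Lib.Helper79AD
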