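import Mathlib
import Cfsg.Prelude.Def_Characters
import Cfsg.Prelude.Def_Blocks
import Cfsg.Agent.Lib.Helper4Char
import Cfsg.Agent.Lib.Helper4Char2
import Cfsg.Agent.Lib.Helper83Char
import Cfsg.Agent.Lib.Helper79Zeros
import Cfsg.Agent.Lib.Helper79Coset
import Cfsg.Agent.S0169
import Cfsg.Agent.S4558

set_option autoImplicit false

namespace Cfsg.Agent.Lib.Helper79KGV

open Cfsg
open Cfsg.Agent.Lib.Helper4Char Cfsg.Agent.Lib.Helper4Char2 Cfsg.Agent.Lib.Helper79Coset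
open scoped ComplexConjugate

variable {X : Type*} [Group X] [Fintype X]

theorem avg_eq_self_iff (V : Subgroup X) [V.Normal] (χ : IrrCharacter X) :
    avg V (χ : X → ℂ) = (χ : X → ℂ) ↔ ∀ n ∈ V, (χ : X → ℂ) n = (χ : X → ℂ) 1 := by
  constructor
  · intro h n hn
    have := avg_mul_left V (χ : X → ℂ) hn 1
    rwa [h, mul_one] at this
  · intro h
    rcases avg_irr V χ.2 with h1 | h1
    · exact h1
    · exfalso
      have h2 := congrFun h1 1
      simp only [avg, mul_one, Pi.zero_apply] at h2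
      have h3 : ∑ x : X, ind V x * (χ : X → ℂ) x = (Nat.card V : ℂ) * (χ : X → ℂ) 1 := by
        rw [← sum_ind V, Finset.sum_mul]
        refine Finset.sum_congr rfl fun x _ => ?_
        by_cases hx : x ∈ V
        · rw [h x hx]
        · rw [ind_of_not_mem hx, zero_mul, zero_mul]
      rw [h3, inv_mul_cancel_left₀ (card_ne_zero' V)] at h2
      exact Helper83Char.irr_one_ne_zero χ.2 h2

open scoped Classical in
/-- the regular character of `X ⧸ V`, written on `X`. -/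
theorem sum_ker_degree_mul (V : Subgroup X) [V.Normal] (x : X) :
    ∑ χ : IrrCharacter X, (if (∀ n ∈ V, (χ : X → ℂ) n = (χ : X → ℂ) 1) then
      (χ : X → ℂ) 1 * (χ : X → ℂ) x else 0) = if x ∈ V then (V.index : ℂ) else 0 := by
  set R : X → ℂ := ∑ χ : IrrCharacter X, (χ : X → ℂ) 1 • (χ : X → ℂ) with hR
  have hRx : ∀ y, R y = if y = 1 then (Nat.card X : ℂ) else 0 := by
    intro y
    rw [← sum_degree_mul y, hR]
    simp [Finset.sum_apply]
  have h1 : avg V R x = ∑ χ : IrrCharacter X, (if (∀ n ∈ V, (χ : X → ℂ) n = (χ : X → ℂ) 1) then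
      (χ : X → ℂ) 1 * (χ : X → ℂ) x else 0) := by
    rw [hR, avg_sum, Finset.sum_apply]
    refine Finset.sum_congr rfl fun χ _ => ?_
    rw [avg_smul]
    split_ifs with h
    · rw [(avg_eq_self_iff V χ).mpr h]; rfl
    · rcases avg_irr V χ.2 with h2 | h2
      · exact absurd ((avg_eq_self_iff V χ).mp h2) h
      · rw [h2]; simp
  rw [← h1]
  simp only [avg, hRx]
  have h2 : ∑ y : X, ind V y * (if y * x = 1 then (Nat.card X : ℂ) else 0) =
      ind V x⁻¹ * (Nat.card X : ℂ) := by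
    rw [Finset.sum_eq_single x⁻¹]
    · simp
    · intro y _ hy
      rw [if_neg, mul_zero]
      intro h
      exact hy (eq_inv_of_mul_eq_one_left h)
    · intro h; exact absurd (Finset.mem_univ _) h
  rw [h2]
  have hV : (Nat.card V : ℂ) ≠ 0 := card_ne_zero' V
  split_ifs with hx
  · rw [ind_of_mem (V.inv_mem hx), one_mul, ← V.card_mul_index]
    push_cast
    field_simp
  · rw [ind_of_not_mem (fun h => hx (by simpa using V.inv_mem h)), zero_mul, mul_zero]

/-- Galois averaging for a single character value. -/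
theorem galois_char : ∃ (Φ : Type) (_ : Fintype Φ) (_ : Nonempty Φ) (k : Φ → ℕ),
    (∀ φ, (k φ).Coprime (Nat.card X)) ∧ ∀ (χ : X → ℂ), IsCharacter X χ → ∀ g : X, χ g ≠ 0 →
      (Fintype.card Φ : ℝ) ≤ ∑ φ : Φ, ‖χ (g ^ k φ)‖ ^ 2 := by
  obtain ⟨Φ, i1, i2, k, hk, hΦ⟩ := Helper79Zeros.galois_prod (Nat.card X) Nat.card_pos
  refine ⟨Φ, i1, i2, k, hk, ?_⟩
  rintro χ ⟨m, ρ, rfl⟩ g h0
  obtain ⟨μ, hμ1, -, hμ3, hμ4, -⟩ := Helper4Eigen.exists_eigenvalues ρ g
  have hμn : ∀ i, μ i ^ Nat.card X = 1 := by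
    intro i
    obtain ⟨c, hc⟩ := orderOf_dvd_natCard g
    rw [hc, pow_mul, hμ1, one_pow]
  have hp := hΦ _ μ hμn (by rw [← hμ4]; exact h0)
  have hp' : 1 ≤ ∏ φ : Φ, ‖ρ.character (g ^ k φ)‖ ^ 2 := by
    rw [Finset.prod_pow]
    apply one_le_pow₀
    simpa only [hμ3] using hp
  have := Helper79Galois.card_le_sum_of_one_le_prod Finset.univ
    (fun φ : Φ => ‖ρ.character (g ^ k φ)‖ ^ 2) (fun _ _ => by positivity) hp'
  simpa using this

omit [Fintype X] in
theorem centralizer_pow [Finite X] (k : ℕ) (hk : k.Coprime (Nat.card X))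
    (g : X) : Subgroup.centralizer ({g ^ k} : Set X) = Subgroup.centralizer ({g} : Set X) := by
  have hko : k.Coprime (orderOf g) := hk.coprime_dvd_right (orderOf_dvd_natCard g)
  obtain ⟨m, hm⟩ := exists_pow_eq_self_of_coprime hko
  ext x
  simp only [Subgroup.mem_centralizer_singleton_iff]
  constructor
  · intro h
    have : Commute x (g ^ k) := h
    have h2 := this.pow_right m
    rw [hm] at h2
    exact h2
  · intro h
    have : Commute x g := h
    exact this.pow_right k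

theorem sum_normSq_col (g : X) : ∑ χ : IrrCharacter X, ‖(χ : X → ℂ) g‖ ^ 2 =
    (Nat.card (Subgroup.centralizer ({g} : Set X)) : ℝ) := by
  have h := col_orth g g
  rw [if_pos (IsConj.refl g)] at h
  have h2 : ∑ χ : IrrCharacter X, (χ : X → ℂ) g * conj ((χ : X → ℂ) g) =
      ((∑ χ : IrrCharacter X, ‖(χ : X → ℂ) g‖ ^ 2 : ℝ) : ℂ) := by
    push_cast
    refine Finset.sum_congr rfl fun χ _ => ?_
    rw [Complex.mul_conj, Complex.normSq_eq_norm_sq]
    push_cast; rfl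
  rw [h2] at h
  exact_mod_cast h

/-- nonvanishing on an abelian normal Sylow subgroup. -/
theorem ne_zero_of_mem (p : ℕ) [Fact p.Prime] (V : Subgroup X) [V.Normal] (hVp : IsPGroup p V)
    (hidx : ¬ p ∣ V.index) (hab : ∀ a ∈ V, ∀ b ∈ V, a * b = b * a) (v : X) (hv : v ∈ V)
    (χ : IrrCharacter X) : (χ : X → ℂ) v ≠ 0 := by
  intro h0
  have hord : ∃ j : ℕ, orderOf v = p ^ j := by
    obtain ⟨j, hj⟩ := (IsPGroup.iff_orderOf.mp hVp) ⟨v, hv⟩
    exact ⟨j, by rw [← hj, Subgroup.orderOf_mk]⟩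
  have h1 := Cfsg.Agent.S4558.result p (χ : X → ℂ) (IsIrrCharacter.isCharacter χ.2) v hord h0
  obtain ⟨n, ρ, hirr, hχ⟩ := χ.2
  have := hirr
  have h2 := Cfsg.Agent.S0169.result ρ V hab
  have h3 : Cfsg.charDegree (χ : X → ℂ) = Module.finrank ℂ (Fin n → ℂ) := by
    rw [← hχ, Cfsg.charDegree, Representation.char_one]
    simp
  rw [h3] at h1
  exact hidx (h1.trans h2)

open scoped Classical in
/-- Knörr type bound. -/
theorem key (p : ℕ) [Fact p.Prime] (V : Subgroup X) [V.Normal] (hVp : IsPGroup p V)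
    (hidx : ¬ p ∣ V.index) (hab : ∀ a ∈ V, ∀ b ∈ V, a * b = b * a) (v : X) (hv : v ∈ V) :
    (Finset.univ.filter (fun χ : IrrCharacter X =>
      ¬ ∀ n ∈ V, (χ : X → ℂ) n = (χ : X → ℂ) 1)).card + V.index ≤
      Nat.card (Subgroup.centralizer ({v} : Set X)) := by
  obtain ⟨Φ, _, _, k, hk, hΦ⟩ := galois_char (X := X)
  have hcard : (0 : ℝ) < Fintype.card Φ := by exact_mod_cast Fintype.card_pos
  set T := Finset.univ.filter (fun χ : IrrCharacter X =>
      ¬ ∀ n ∈ V, (χ : X → ℂ) n = (χ : X → ℂ) 1) with hT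
  set S := Finset.univ.filter (fun χ : IrrCharacter X =>
      ∀ n ∈ V, (χ : X → ℂ) n = (χ : X → ℂ) 1) with hS
  have hSsum : ∀ w ∈ V, ∑ χ ∈ S, ‖(χ : X → ℂ) w‖ ^ 2 = (V.index : ℝ) := by
    intro w hw
    have h1 := sum_ker_degree_mul V (1 : X)
    rw [if_pos V.one_mem, ← Finset.sum_filter] at h1
    have h2 : ∑ χ ∈ S, (χ : X → ℂ) 1 * (χ : X → ℂ) 1 =
        ((∑ χ ∈ S, ‖(χ : X → ℂ) w‖ ^ 2 : ℝ) : ℂ) := by
      push_cast
      refine Finset.sum_congr rfl fun χ hχ => ?_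
      rw [(Finset.mem_filter.mp hχ).2 w hw]
      obtain ⟨n, -, hn⟩ := Helper83Char.irr_one χ.2
      rw [hn]
      simp [sq]
    rw [h2] at h1
    exact_mod_cast h1
  have hTsum : ∀ φ : Φ, ∑ χ ∈ T, ‖(χ : X → ℂ) (v ^ k φ)‖ ^ 2 =
      (Nat.card (Subgroup.centralizer ({v} : Set X)) : ℝ) - (V.index : ℝ) := by
    intro φ
    have h1 := sum_normSq_col (v ^ k φ)
    rw [centralizer_pow _ (hk φ), ← Finset.sum_filter_add_sum_filter_not Finset.univ
      (fun χ : IrrCharacter X => ∀ n ∈ V, (χ : X → ℂ) n = (χ : X → ℂ) 1),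
      hSsum _ (V.pow_mem hv _)] at h1
    linarith
  have h2 : ∀ χ ∈ T, (Fintype.card Φ : ℝ) ≤ ∑ φ : Φ, ‖(χ : X → ℂ) (v ^ k φ)‖ ^ 2 := by
    intro χ _
    exact hΦ _ (IsIrrCharacter.isCharacter χ.2) v (ne_zero_of_mem p V hVp hidx hab v hv χ)
  have h3 := Finset.sum_le_sum h2
  rw [Finset.sum_comm, Finset.sum_congr rfl (fun φ _ => hTsum φ)] at h3
  simp only [Finset.sum_const, Finset.card_univ, nsmul_eq_mul] at h3
  have h4 : (T.card : ℝ) ≤ (Nat.card (Subgroup.centralizer ({v} : Set X)) : ℝ) - (V.index : ℝ) := by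
    rw [mul_comm] at h3
    exact le_of_mul_le_mul_left h3 hcard
  have h5 : ((T.card + V.index : ℕ) : ℝ) ≤ (Nat.card (Subgroup.centralizer ({v} : Set X)) : ℝ) := by
    push_cast; linarith
  exact_mod_cast h5

open scoped Classical in
theorem sum_ker_sq (V : Subgroup X) [V.Normal] :
    ∑ χ ∈ Finset.univ.filter (fun χ : IrrCharacter X =>
      ∀ n ∈ V, (χ : X → ℂ) n = (χ : X → ℂ) 1), Cfsg.charDegree (χ : X → ℂ) ^ 2 = V.index := by
  have h1 := sum_ker_degree_mul V (1 : X)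
  rw [if_pos V.one_mem, ← Finset.sum_filter] at h1
  have h2 : ∑ χ ∈ Finset.univ.filter (fun χ : IrrCharacter X =>
      ∀ n ∈ V, (χ : X → ℂ) n = (χ : X → ℂ) 1), (χ : X → ℂ) 1 * (χ : X → ℂ) 1 =
      ((∑ χ ∈ Finset.univ.filter (fun χ : IrrCharacter X =>
      ∀ n ∈ V, (χ : X → ℂ) n = (χ : X → ℂ) 1), Cfsg.charDegree (χ : X → ℂ) ^ 2 : ℕ) : ℂ) := by
    push_cast
    refine Finset.sum_congr rfl fun χ _ => ?_
    rw [Helper83Char.charDegree_cast χ.2, sq]
  rw [h2] at h1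
  exact_mod_cast h1

open scoped Classical in
theorem card_ker_le (V : Subgroup X) [V.Normal] :
    (Finset.univ.filter (fun χ : IrrCharacter X =>
      ∀ n ∈ V, (χ : X → ℂ) n = (χ : X → ℂ) 1)).card ≤ V.index := by
  rw [← sum_ker_sq V, Finset.card_eq_sum_ones]
  apply Finset.sum_le_sum
  intro χ _
  exact Nat.one_le_pow _ _ (Helper83Char.charDegree_pos χ.2)

open scoped Classical in
theorem linear_of_card_ker_eq (V : Subgroup X) [V.Normal]
    (h : (Finset.univ.filter (fun χ : IrrCharacter X =>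
      ∀ n ∈ V, (χ : X → ℂ) n = (χ : X → ℂ) 1)).card = V.index) (χ : IrrCharacter X)
    (hχ : ∀ n ∈ V, (χ : X → ℂ) n = (χ : X → ℂ) 1) : (χ : X → ℂ) 1 = 1 := by
  rw [← sum_ker_sq V, Finset.card_eq_sum_ones] at h
  have hle : ∀ ψ ∈ Finset.univ.filter (fun χ : IrrCharacter X =>
      ∀ n ∈ V, (χ : X → ℂ) n = (χ : X → ℂ) 1), 1 ≤ Cfsg.charDegree (ψ : X → ℂ) ^ 2 :=
    fun ψ _ => Nat.one_le_pow 2 _ (Helper83Char.charDegree_pos ψ.2)
  have h2 := (Finset.sum_eq_sum_iff_of_le hle).mp h χ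
    (Finset.mem_filter.mpr ⟨Finset.mem_univ _, hχ⟩)
  have h3 : Cfsg.charDegree (χ : X → ℂ) = 1 := by
    have := h2.symm
    rcases Nat.pow_eq_one.mp this with h | h
    · exact h
    · exact absurd h two_ne_zero
  rw [← Helper83Char.charDegree_cast χ.2, h3, Nat.cast_one]

end Cfsg.Agent.Lib.Helper79KGV
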