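import Mathlib
import Cfsg.Prelude.Def_Local
import Cfsg.Agent.Lib.Helper83Ito

/-!
# Solvable groups are `p`-solvable
-/

set_option autoImplicit false

namespace Cfsg.Agent.Lib.Helper79PSolv

open Cfsg

universe u

theorem isPSolvable_of_quotient {G : Type*} [Group G] {p : ℕ} (N : Subgroup G) [hN : N.Normal]
    (hNp : (∃ m : ℕ, Nat.card N = p ^ m) ∨ (Nat.card N).Coprime p)
    (h : IsPSolvable p (G ⧸ N)) : IsPSolvable p G := by
  obtain ⟨n, H, h0, hn, hmono, hnorm, hfac⟩ := h
  have hsurj := QuotientGroup.mk'_surjective N
  refine ⟨n + 1, Fin.cons ⊥ (fun i => (H i).comap (QuotientGroup.mk' N)), ?_, ?_, ?_, ?_, ?_⟩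
  · rfl
  · rw [← Fin.succ_last, Fin.cons_succ, hn, Subgroup.comap_top]
  · intro i j hij
    induction i using Fin.cases with
    | zero => rw [Fin.cons_zero]; exact bot_le
    | succ i =>
      induction j using Fin.cases with
      | zero => exact absurd hij (by simp)
      | succ j =>
        rw [Fin.cons_succ, Fin.cons_succ]
        exact Subgroup.comap_mono (hmono (Fin.succ_le_succ_iff.mp hij))
  · intro i
    induction i using Fin.cases with
    | zero => rw [Fin.cons_zero]; infer_instance
    | succ i =>
      rw [Fin.cons_succ]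
      exact (hnorm i).comap _
  · intro i
    induction i using Fin.cases with
    | zero =>
      rw [Fin.castSucc_zero, Fin.cons_zero, Fin.cons_succ, h0, Subgroup.relIndex_bot_left]
      have : (⊥ : Subgroup (G ⧸ N)).comap (QuotientGroup.mk' N) = N := by
        have h1 : (⊥ : Subgroup (G ⧸ N)).comap (QuotientGroup.mk' N) = (QuotientGroup.mk' N).ker := rfl
        rw [h1, QuotientGroup.ker_mk']
      rw [this]
      exact hNp
    | succ i =>
      rw [← Fin.succ_castSucc, Fin.cons_succ, Fin.cons_succ, Subgroup.relIndex_comap,
        Subgroup.map_comap_eq_self_of_surjective hsurj]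
      exact hfac i

theorem isPSolvable_aux (p : ℕ) [Fact p.Prime] (n : ℕ) : ∀ (G : Type u) [Group G] [Finite G],
    Nat.card G = n → Group.IsSolvable G → IsPSolvable p G := by
  induction n using Nat.strong_induction_on with
  | _ n ih =>
    intro G _ _ hcard hs
    rcases subsingleton_or_nontrivial G with hsub | hnt
    · refine ⟨0, fun _ => ⊥, rfl, ?_, fun _ _ _ => le_rfl, fun _ => inferInstance,
        fun i => i.elim0⟩
      exact Subsingleton.elim _ _
    · obtain ⟨N, hN, hne, hNp⟩ := Cfsg.Agent.Lib.Helper83Ito.exists_normal_of_solvable p G hs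
      apply isPSolvable_of_quotient N
      · rcases hNp with h1 | h1
        · left
          exact IsPGroup.iff_card.mp h1
        · right
          exact h1
      · apply ih (Nat.card (G ⧸ N)) _ (G ⧸ N) rfl inferInstance
        rw [← hcard, ← Subgroup.index_eq_card, ← N.card_mul_index]
        have h1 : 1 < Nat.card N := by
          rw [Finite.one_lt_card_iff_nontrivial]
          exact (Subgroup.nontrivial_iff_ne_bot N).mpr hne
        have h2 : 0 < N.index := Nat.pos_of_ne_zero Subgroup.index_ne_zero_of_finite
        nlinarith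

theorem isPSolvable_of_isSolvable (p : ℕ) [Fact p.Prime] (G : Type*) [Group G] [Finite G]
    [hs : Group.IsSolvable G] : IsPSolvable p G := isPSolvable_aux p _ G rfl hs

end Cfsg.Agent.Lib.Helper79PSolv
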