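import Mathlib
import Cfsg.Prelude.Def_Blocks
import Cfsg.Agent.Lib.Helper79PrinLin
import Cfsg.Agent.Lib.Helper79GalConj
import Cfsg.Agent.Lib.Helper20Orbit

/-!
# Galois-fixed `p'`-degree characters of the principal block over linear characters of a Sylow
-/

set_option autoImplicit false
set_option linter.unusedSectionVars false

namespace Cfsg.Agent.Lib.Helper79PrinGal

open Cfsg
open Cfsg.Agent.Lib.Helper4Char Cfsg.Agent.Lib.Helper4Char2 Cfsg.Agent.Lib.Helper4Char4
open Cfsg.Agent.Lib.Helper32Virt Cfsg.Agent.Lib.Helper84Contrib Cfsg.Agent.Lib.Helper82Linear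
open Cfsg.Agent.Lib.Helper20Local Cfsg.Agent.Lib.Helper20Block
open Cfsg.Agent.Lib.Helper11Frobenius
open scoped ComplexConjugate

/-- weighted fixed point congruence for a self-map of `p`-power order. -/
theorem exists_fixed_not_dvd {X : Type*} [Fintype X] {p : ℕ} [Fact p.Prime]
    (τ : Function.End X) (n : ℕ) (hτ : τ ^ p ^ n = 1) (W : X → ℤ) (hW : ∀ x, W (τ x) = W x)
    (hsum : ¬ (p : ℤ) ∣ ∑ x, W x) : ∃ x, τ x = x ∧ ¬ (p : ℤ) ∣ W x := by
  classical
  have hp : p.Prime := Fact.out
  obtain ⟨M, hM⟩ := Cfsg.Agent.Lib.Helper81ClassMul.exists_modular hp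
  have hPr := IsPModular.isPrime hM
  obtain ⟨u, hu⟩ := IsUnit.of_pow_eq_one hτ (pow_pos hp.pos n).ne'
  have hun : u ^ p ^ n = 1 := by
    apply Units.ext
    rw [Units.val_pow_eq_pow_val, hu, hτ, Units.val_one]
  have hsm : ∀ x, u • x = τ x := fun x => by
    rw [← hu]; rfl
  have : Finite (Function.End X) := inferInstanceAs (Finite (X → X))
  let H : Subgroup (Function.End X)ˣ :=
    { carrier := {v | ∀ x, W (v • x) = W x}
      mul_mem' := by
        intro a b ha hb x
        rw [mul_smul, ha, hb]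
      one_mem' := by
        intro x
        rw [one_smul]
      inv_mem' := by
        intro a ha x
        have := ha (a⁻¹ • x)
        rw [smul_inv_smul] at this
        exact this.symm }
  have huH : u ∈ H := fun x => by rw [hsm, hW]
  have hle : Subgroup.zpowers u ≤ H := (Subgroup.zpowers_le).mpr huH
  have hpg : IsPGroup p (Subgroup.zpowers u) := by
    rintro ⟨z, hz⟩
    obtain ⟨j, rfl⟩ := Subgroup.mem_zpowers_iff.mp hz
    refine ⟨n, ?_⟩
    apply Subtype.ext
    change (u ^ j) ^ p ^ n = 1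
    rw [← zpow_natCast, ← zpow_mul, mul_comm, zpow_mul, zpow_natCast, hun, one_zpow]
  have key := Cfsg.Agent.Lib.Helper20Orbit.sum_sub_fixed_mem hM (P := Subgroup.zpowers u) (X := X)
    hpg (fun x => (W x : ℂ)) (fun q x => by
      have := hle q.2 x
      exact_mod_cast this) (fun x => memLocalRing_intCast hPr _)
  by_contra hcon
  push Not at hcon
  apply hsum
  have h2 : ∀ x, (p : ℤ) ∣ (if x ∈ MulAction.fixedPoints (Subgroup.zpowers u) X then W x else 0) := by
    intro x
    split_ifs with hx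
    · apply hcon
      have := hx ⟨u, Subgroup.mem_zpowers u⟩
      rw [← hsm]
      exact this
    · exact dvd_zero _
  have h3 : (p : ℤ) ∣ ∑ x, (if x ∈ MulAction.fixedPoints (Subgroup.zpowers u) X then 0 else W x) := by
    rw [← memLocalIdeal_intCast_iff hM]
    convert key using 1
    push_cast
    apply Finset.sum_congr rfl
    intro x _
    split_ifs <;> simp
  have h4 : ∑ x, W x = ∑ x, (if x ∈ MulAction.fixedPoints (Subgroup.zpowers u) X then W x else 0)
      + ∑ x, (if x ∈ MulAction.fixedPoints (Subgroup.zpowers u) X then 0 else W x) := by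
    rw [← Finset.sum_add_distrib]
    apply Finset.sum_congr rfl
    intro x _
    split_ifs <;> simp
  rw [h4]
  exact dvd_add (Finset.dvd_sum (fun x _ => h2 x)) h3

variable {G : Type*} [Group G] [Fintype G] {M : Ideal Cfsg.AlgInt} {p : ℕ} [Fact p.Prime]

/-- `|P| 1°` restricts to the regular character of the Sylow subgroup `P`. -/
theorem sum_N_mul (P : Sylow p G) [Fintype P] (μ : P → ℂ) (hμ1 : μ 1 = 1)
    (m : IrrCharacter G → ℤ) (hm : ∀ ψ : IrrCharacter G,
      classInner (fun x : P => (ψ : G → ℂ) x) μ = m ψ) :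
    ∑ ψ : IrrCharacter G, N p (irrOne G) ψ * m ψ = 1 := by
  classical
  have hp : p.Prime := Fact.out
  have hcardP : Nat.card P = p ^ (Nat.card G).factorization p := P.card_eq_multiplicity
  have hcardP0 : (Nat.card P : ℂ) ≠ 0 := by exact_mod_cast Nat.card_pos.ne'
  have e1 : classInner (fun x : P => tld p ((irrOne G : IrrCharacter G) : G → ℂ) x) μ = 1 := by
    unfold classInner
    rw [Finset.sum_eq_single (1 : P)]
    · have h1 : ¬ p ∣ orderOf (((1 : P) : G)) := by
        rw [OneMemClass.coe_one, orderOf_one]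
        exact hp.one_lt.ne' ∘ Nat.dvd_one.mp
      have h2 : tld p ((irrOne G : IrrCharacter G) : G → ℂ) ((1 : P) : G)
          = ((p ^ (Nat.card G).factorization p : ℕ) : ℂ) * 1 := if_neg h1
      beta_reduce
      rw [h2, hμ1, map_one, mul_one, mul_one, ← hcardP]
      exact inv_mul_cancel₀ hcardP0
    · intro x _ hx
      have h1 : p ∣ orderOf (x : G) := by
        rw [Subgroup.orderOf_coe]
        obtain ⟨k, hk⟩ := (IsPGroup.iff_orderOf.mp P.isPGroup' x)
        rw [hk]
        rcases Nat.eq_zero_or_pos k with rfl | hk0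
        · rw [pow_zero, orderOf_eq_one_iff] at hk
          exact absurd hk hx
        · exact dvd_pow_self p hk0.ne'
      have h2 : tld p ((irrOne G : IrrCharacter G) : G → ℂ) (x : G) = 0 := if_pos h1
      beta_reduce
      rw [h2, zero_mul]
    · intro h
      exact absurd (Finset.mem_univ _) h
  have e2 : classInner (fun x : P => tld p ((irrOne G : IrrCharacter G) : G → ℂ) x) μ
      = ∑ ψ : IrrCharacter G, (N p (irrOne G) ψ : ℂ) * (m ψ : ℂ) := by
    have h1 : (fun x : P => tld p ((irrOne G : IrrCharacter G) : G → ℂ) x)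
        = ∑ ψ : IrrCharacter G, (N p (irrOne G) ψ : ℂ) • (fun x : P => (ψ : G → ℂ) x) := by
      funext x
      rw [tld_eq_sum]
      simp only [Finset.sum_apply, Pi.smul_apply]
    rw [h1, classInner_sum_left]
    apply Finset.sum_congr rfl
    intro ψ _
    rw [classInner_smul_left, hm]
  have := e2.symm.trans e1
  exact_mod_cast this

/-- the Galois twist of an irreducible character by a power map. -/
noncomputable def twist (k : ℕ) (hk : k.Coprime (Nat.card G)) (χ : IrrCharacter G) :
    IrrCharacter G :=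
  ⟨fun g => (χ : G → ℂ) (g ^ k), Helper79GalConj.isIrrCharacter_pow χ.2 k hk⟩

theorem twist_apply (k : ℕ) (hk : k.Coprime (Nat.card G)) (χ : IrrCharacter G) (g : G) :
    (twist k hk χ : G → ℂ) g = (χ : G → ℂ) (g ^ k) := rfl

theorem N_twist (k : ℕ) (hk : k.Coprime (Nat.card G)) (ψ : IrrCharacter G) :
    N p (irrOne G) (twist k hk ψ) = N p (irrOne G) ψ := by
  have h1 := N_spec p (irrOne G) (twist k hk ψ)
  have h2 := N_spec p (irrOne G) ψ
  have h3 : classInner (tld p ((irrOne G : IrrCharacter G) : G → ℂ)) (twist k hk ψ : G → ℂ)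
      = classInner (tld p ((irrOne G : IrrCharacter G) : G → ℂ)) (ψ : G → ℂ) := by
    unfold classInner
    congr 1
    apply Fintype.sum_bijective (fun g : G => g ^ k) (Helper79GalConj.pow_bijective k hk)
    intro g
    rw [twist_apply]
    congr 1
    have ho : orderOf (g ^ k) = orderOf g :=
      Nat.Coprime.orderOf_pow (hk.symm.coprime_dvd_left (orderOf_dvd_natCard g))
    unfold tld
    rw [ho]
    rfl
  rw [h1, h2] at h3
  exact_mod_cast h3

/-- **Galois-fixed version**: for a power map of `p`-power order fixing the linear character `μ`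
of the Sylow subgroup `P`, there is a fixed `p'`-degree character in the principal block
over `μ`. -/
theorem exists_fixed_pprime_over (hM : IsPModular p M) (P : Sylow p G) [Fintype P] (μ : P → ℂ)
    (hμ : IsIrrCharacter P μ) (hμ1 : μ 1 = 1) (k : ℕ) (hk : k.Coprime (Nat.card G)) (n : ℕ)
    (hkn : ∀ g : G, g ^ (k ^ p ^ n) = g) (hμk : ∀ x : P, μ (x ^ k) = μ x) :
    ∃ χ ∈ principalBlock M G, ¬ p ∣ charDegree (χ : G → ℂ) ∧
      (∀ g : G, (χ : G → ℂ) (g ^ k) = (χ : G → ℂ) g) ∧
      classInner (fun x : P => (χ : G → ℂ) x) μ ≠ 0 := by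
  classical
  have hp : p.Prime := Fact.out
  have hPr := IsPModular.isPrime hM
  have hmem : irrOne G ∈ principalBlock M G := sameBlock_refl hPr _
  have hB : IsPBlock M (principalBlock M G) := ⟨irrOne G, rfl⟩
  have hm : ∀ ψ : IrrCharacter G, ∃ n : ℤ, classInner (fun x : P => (ψ : G → ℂ) x) μ = n :=
    fun ψ => gen_inner_int
      (gen_of_char (IsCharacter.restrict (P : Subgroup G) (IsIrrCharacter.isCharacter ψ.2)))
      (gen_of_irr hμ)
  choose m hm using hm
  have e3 := sum_N_mul P μ hμ1 m hm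
  let τ : Function.End (IrrCharacter G) := twist k hk
  have hτj : ∀ (j : ℕ) (s : IrrCharacter G) (g : G),
      ((τ ^ j) s : G → ℂ) g = (s : G → ℂ) (g ^ (k ^ j)) := by
    intro j
    induction j with
    | zero => intro s g; rw [pow_zero, pow_zero, pow_one]; rfl
    | succ j ih =>
      intro s g
      rw [pow_succ]
      change ((τ ^ j) (τ s) : G → ℂ) g = _
      rw [ih]
      change (s : G → ℂ) ((g ^ (k ^ j)) ^ k) = _
      rw [← pow_mul, ← pow_succ]
  have hτ : τ ^ p ^ n = 1 := by
    funext s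
    apply Subtype.ext
    funext g
    rw [hτj, hkn]
    rfl
  have hkP : k.Coprime (Nat.card P) :=
    hk.coprime_dvd_right (Subgroup.card_subgroup_dvd_card (P : Subgroup G))
  have hmτ : ∀ ψ, m (τ ψ) = m ψ := by
    intro ψ
    have h3 : classInner (fun x : P => (τ ψ : G → ℂ) x) μ
        = classInner (fun x : P => (ψ : G → ℂ) x) μ := by
      unfold classInner
      congr 1
      apply Fintype.sum_bijective (fun g : P => g ^ k) (Helper79GalConj.pow_bijective k hkP)
      intro x
      rw [hμk]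
      rfl
    rw [hm, hm] at h3
    exact_mod_cast h3
  obtain ⟨ψ, hfix, hψ⟩ := exists_fixed_not_dvd τ n hτ (fun ψ => N p (irrOne G) ψ * m ψ)
    (fun ψ => by
      change N p (irrOne G) (twist k hk ψ) * m (τ ψ) = _
      rw [N_twist, hmτ]) (by
      rw [e3]
      intro h1
      have h2 : (p : ℤ) = 1 ∨ (p : ℤ) = -1 := by
        rcases Int.isUnit_iff.mp (isUnit_of_dvd_one h1) with h | h
        · exact Or.inl h
        · exact Or.inr h
      have h3 := hp.one_lt
      omega)
  refine ⟨ψ, ?_, ?_, ?_, ?_⟩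
  · by_contra hnot
    apply hψ
    rw [N_eq_zero_of_not_mem hM hB hmem hnot, zero_mul]
    exact dvd_zero _
  · intro hd
    apply hψ
    have h1 := pow_dvd_N' (p := p) (irrOne G) ψ
    have h2 : 1 ≤ (charDegree (ψ : G → ℂ)).factorization p :=
      (hp.dvd_iff_one_le_factorization
        (Cfsg.Agent.Lib.Helper83Char.charDegree_pos ψ.2).ne').mp hd
    exact Dvd.dvd.mul_right ((dvd_pow_self (p : ℤ) (by omega)).trans h1) _
  · intro g
    have := congrArg (fun s : IrrCharacter G => (s : G → ℂ) g) hfix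
    exact this
  · rw [hm]
    intro h0
    apply hψ
    have : m ψ = 0 := by exact_mod_cast h0
    rw [this, mul_zero]
    exact dvd_zero _

/-- If every linear character of order dividing `p` of a Sylow `p`-subgroup extends to `G`, then
`G` has a normal `p`-complement (via Tate's theorem). -/
theorem hasNPC_of_ext_elem {G : Type*} [Group G] [Finite G] {p : ℕ} [Fact p.Prime] (P : Sylow p G)
    (hext : ∀ μ : P →* ℂˣ, (∀ x, μ x ^ p = 1) → ∃ f : G →* ℂˣ, ∀ x : P, f x = μ x) :
    HasNPC p G := by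
  have hp : p.Prime := Fact.out
  set a := (Nat.card G).factorization p with ha
  set u := Nat.card G / p ^ a with hu
  have hau : p ^ a * u = Nat.card G := Nat.ordProj_mul_ordCompl_eq_self _ p
  have hup : ¬ p ∣ u := Nat.not_dvd_ordCompl hp Nat.card_pos.ne'
  let N : Subgroup G := ⨅ f : {f : G →* ℂˣ // ∀ g, f g ^ p ^ a = 1}, f.1.ker
  have hN : N.Normal := Subgroup.normal_iInf_normal (fun f => inferInstance)
  have hpow : ∀ g : G, g ^ p ^ a ∈ N := by
    intro g
    rw [Subgroup.mem_iInf]
    intro f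
    rw [MonoidHom.mem_ker, map_pow]
    exact f.2 g
  apply Helper79PrinLin.hasNPC_of_normal N a hpow
  rw [hasNPC_iff]
  apply Cfsg.Agent.S0081.result P N
  rintro x ⟨hxN, hxP⟩
  refine ⟨⟨x, hxP⟩, ?_, rfl⟩
  by_contra hcon
  -- a linear character of `P` of order `p` not killing `x`
  let R : Subgroup (Abelianization P) := (powMonoidHom p : Abelianization P →* Abelianization P).range
  have h1 : (QuotientGroup.mk (Abelianization.of (⟨x, hxP⟩ : P)) : Abelianization P ⧸ R) ≠ 1 := by
    intro h
    apply hcon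
    have h2 : Abelianization.of (⟨x, hxP⟩ : P) ∈ R := (QuotientGroup.eq_one_iff _).mp h
    obtain ⟨y, hy⟩ := h2
    obtain ⟨z, rfl⟩ := QuotientGroup.mk_surjective y
    have h3 : (QuotientGroup.mk (z ^ p) : Abelianization P)
        = QuotientGroup.mk (⟨x, hxP⟩ : P) := hy
    have h4 : (z ^ p)⁻¹ * (⟨x, hxP⟩ : P) ∈ commutator P := QuotientGroup.eq.mp h3
    have h5 := Cfsg.Agent.Lib.Helper3PGroup.commutator_le_frattini P.isPGroup' h4
    have h6 := Cfsg.Agent.Lib.Helper3PGroup.pow_mem_frattini P.isPGroup' z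
    have h7 := mul_mem h6 h5
    rwa [mul_inv_cancel_left] at h7
  obtain ⟨φ, hφ⟩ := CommGroup.exists_apply_ne_one_of_hasEnoughRootsOfUnity
    (Abelianization P ⧸ R) ℂ h1
  obtain ⟨f, hf⟩ := hext ((φ.comp (QuotientGroup.mk' R)).comp Abelianization.of) (by
    intro z
    rw [← map_pow]
    have : (QuotientGroup.mk' R) (Abelianization.of (z ^ p)) = 1 := by
      rw [QuotientGroup.mk'_apply, QuotientGroup.eq_one_iff, map_pow]
      exact ⟨Abelianization.of z, rfl⟩
    rw [MonoidHom.comp_apply, MonoidHom.comp_apply, this, map_one])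
  have hfx : f x ≠ 1 := by
    have := hf ⟨x, hxP⟩
    rw [show f x = f ((⟨x, hxP⟩ : P) : G) from rfl, this]
    exact hφ
  apply hfx
  have h2 : f x ^ u = 1 := by
    have hmem : ∀ g, (f ^ u) g ^ p ^ a = 1 := by
      intro g
      rw [MonoidHom.pow_apply, ← pow_mul, mul_comm, hau, ← map_pow, pow_card_eq_one', map_one]
    have := (Subgroup.mem_iInf.mp hxN) ⟨f ^ u, hmem⟩
    rw [MonoidHom.mem_ker, MonoidHom.pow_apply] at this
    exact this
  have h3 : f x ^ p ^ a = 1 := by
    have h4 : (⟨x, hxP⟩ : P) ^ p ^ a = 1 := by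
      rw [← P.card_eq_multiplicity]
      exact pow_card_eq_one'
    have h5 : x ^ p ^ a = 1 := congrArg Subtype.val h4
    rw [← map_pow, h5, map_one]
  have hco : Nat.Coprime u (p ^ a) :=
    Nat.Coprime.pow_right a ((Nat.Prime.coprime_iff_not_dvd hp).mpr hup).symm
  have h6 := pow_gcd_eq_one.mpr ⟨h2, h3⟩
  rwa [hco.gcd_eq_one, pow_one] at h6

/-- Galois version of Isaacs--Smith: if all `p'`-degree characters of the principal block fixed by
a power map of `p`-power order (which is `≡ 1` mod `p` on `p`-elements) are linear, then `G` has a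
normal `p`-complement. -/
theorem hasNPC_of_fixed_linear (hM : IsPModular p M) (k n : ℕ) (hk : k.Coprime (Nat.card G))
    (hkn : ∀ g : G, g ^ (k ^ p ^ n) = g)
    (hkP : ∀ x : G, (∃ j, orderOf x = p ^ j) → ∃ t, x ^ k = x * (x ^ p) ^ t)
    (hlin : ∀ χ ∈ principalBlock M G, ¬ p ∣ charDegree (χ : G → ℂ) →
      (∀ g : G, (χ : G → ℂ) (g ^ k) = (χ : G → ℂ) g) → (χ : G → ℂ) 1 = 1) :
    HasNPC p G := by
  classical
  obtain ⟨P⟩ : Nonempty (Sylow p G) := inferInstance
  apply hasNPC_of_ext_elem P
  intro μ hμp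
  have : Fintype P := Fintype.ofFinite _
  have hμ := isIrrCharacter_of_hom μ
  obtain ⟨χ, hχ, hdeg, hfix, hne⟩ := exists_fixed_pprime_over hM P (fun x => ((μ x : ℂˣ) : ℂ)) hμ
    (by simp) k hk n hkn (by
      intro x
      obtain ⟨j, hj⟩ := IsPGroup.iff_orderOf.mp P.isPGroup' x
      obtain ⟨t, ht⟩ := hkP (x : G) ⟨j, by rw [Subgroup.orderOf_coe, hj]⟩
      have ht' : x ^ k = x * (x ^ p) ^ t := Subtype.ext ht
      rw [ht', map_mul, map_pow, map_pow, hμp, one_pow, mul_one])
  have h1 := hlin χ hχ hdeg hfix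
  refine ⟨homOfLinear χ h1, ?_⟩
  have hres : IsIrrCharacter P (fun x : P => (χ : G → ℂ) x) :=
    isIrrCharacter_of_hom ((homOfLinear χ h1).comp (P : Subgroup G).subtype)
  have heq : (fun x : P => (χ : G → ℂ) x) = (fun x => ((μ x : ℂˣ) : ℂ)) := by
    by_contra hcon
    exact hne (classInner_irr_ne hres hμ hcon)
  intro x
  apply Units.ext
  rw [homOfLinear_apply]
  exact congrFun heq x

end Cfsg.Agent.Lib.Helper79PrinGal
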