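import Mathlib
import Cfsg.Prelude.Def_Characters
import Cfsg.Agent.Lib.Helper4Char
import Cfsg.Agent.Lib.Helper83Char
import Cfsg.Agent.Lib.Helper19Ind
import Cfsg.Agent.Lib.Helper32Ind
import Cfsg.Agent.Lib.Helper79Zeros

set_option autoImplicit false
set_option linter.unusedSectionVars false

namespace Cfsg.Agent.Lib.Helper79Ramified

open Cfsg
open Cfsg.Agent.Lib.Helper4Char
open scoped ComplexConjugate

section general

variable {X : Type*} [Group X] [Fintype X]

omit [Fintype X] in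
theorem extendByZero_isClassFunction (Y : Subgroup X) [hY : Y.Normal] (η : Y → ℂ)
    (hη : ∀ (x : X) (y : Y), η ⟨x * y * x⁻¹, hY.conj_mem y y.2 x⟩ = η y) :
    IsClassFunction X (extendByZero Y η) := by
  intro g h
  by_cases hg : g ∈ Y
  · rw [Helper19Ind.extendByZero_of_mem Y η hg,
      Helper19Ind.extendByZero_of_mem Y η (hY.conj_mem g hg h)]
    exact hη h ⟨g, hg⟩
  · have hg' : h * g * h⁻¹ ∉ Y := by
      intro hmem
      apply hg
      have := hY.conj_mem _ hmem h⁻¹
      simpa [mul_assoc] using this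
    rw [Helper19Ind.extendByZero_of_not_mem Y η hg, Helper19Ind.extendByZero_of_not_mem Y η hg']

/-- an invariant function `η` on a normal subgroup `Y` acts on an irreducible character `ψ`
of `X` through a scalar. -/
theorem twist (Y : Subgroup X) [hY : Y.Normal] [Fintype Y] (η : Y → ℂ)
    (hη : ∀ (x : X) (y : Y), η ⟨x * y * x⁻¹, hY.conj_mem y y.2 x⟩ = η y)
    {ψ : X → ℂ} (hψ : IsIrrCharacter X ψ) (g : X) :
    ∑ y : Y, η y * ψ (y * g) = (∑ y : Y, η y * ψ y) * ψ g / ψ 1 := by
  have hcl := extendByZero_isClassFunction Y η hη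
  have := Helper83Char.irr_key hψ (extendByZero Y η) hcl g
  rwa [Helper32Ind.sum_extendByZero_mul Y η (fun x => ψ (x * g)),
    Helper32Ind.sum_extendByZero_mul Y η ψ] at this

theorem orth_trick (Y : Subgroup X) [Fintype Y] (η : Y → ℂ) (hη : ∀ y, η y⁻¹ = conj (η y))
    (a b : X → ℂ) (c : ℂ) (hc : c ≠ 0) (ha : ∀ x, ∑ y : Y, conj (η y) * a (y * x) = c * a x)
    (hb : ∀ x, ∑ y : Y, conj (η y) * b (y * x) = 0) : ∑ x, a x * conj (b x) = 0 := by
  have h1 : c * ∑ x, a x * conj (b x) = ∑ x, ∑ y : Y, conj (η y) * a (y * x) * conj (b x) := by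
    rw [Finset.mul_sum]
    refine Finset.sum_congr rfl fun x _ => ?_
    rw [← mul_assoc, ← ha x, Finset.sum_mul]
  have h2 : ∀ y : Y, ∑ x, conj (η y) * a (y * x) * conj (b x) =
      ∑ x, conj (η y) * a x * conj (b ((y⁻¹ : Y) * x)) := by
    intro y
    refine Fintype.sum_equiv (Equiv.mulLeft (y : X)) _ _ ?_
    intro x
    simp
  have h3 : ∀ x, ∑ y : Y, conj (η y) * a x * conj (b ((y⁻¹ : Y) * x)) = 0 := by
    intro x
    have e1 : ∑ y : Y, conj (η y) * a x * conj (b ((y⁻¹ : Y) * x)) =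
        a x * conj (∑ y : Y, η y * b ((y⁻¹ : Y) * x)) := by
      rw [map_sum, Finset.mul_sum]
      refine Finset.sum_congr rfl fun y _ => ?_
      rw [map_mul]; ring
    have e2 : ∑ y : Y, η y * b ((y⁻¹ : Y) * x) = ∑ y : Y, conj (η y) * b (y * x) := by
      refine Fintype.sum_equiv (Equiv.inv Y) _ _ ?_
      intro y
      simp only [Equiv.inv_apply, hη, Complex.conj_conj]
    rw [e1, e2, hb x, map_zero, mul_zero]
  rw [Finset.sum_comm, Finset.sum_congr rfl (fun y _ => h2 y), Finset.sum_comm,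
    Finset.sum_congr rfl (fun x _ => h3 x), Finset.sum_const_zero] at h1
  exact (mul_eq_zero.mp h1).resolve_left hc

end general

section ramified

variable {H : Type*} [Group H] [Fintype H] (Z : Subgroup H) [hZ : Z.Normal] [Fintype Z]
  {χ : H → ℂ} (hχ : IsIrrCharacter H χ) {θ : Z → ℂ} (hθ : IsIrrCharacter Z θ) {e : ℕ}
  (he : e ^ 2 = Z.index) (hres : ∀ z : Z, χ z = (e : ℂ) * θ z)

include he in
omit [Fintype H] hZ [Fintype Z] in
theorem e_ne_zero [Finite H] : e ≠ 0 := by
  rintro rfl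
  have : Z.index ≠ 0 := Subgroup.index_ne_zero_of_finite
  apply this
  rw [← he]; norm_num

include hχ hθ he hres in
/-- a fully ramified character vanishes off the normal subgroup. -/
theorem vanish (h : H) (hh : h ∉ Z) : χ h = 0 := by
  classical
  have h1 := Helper79Zeros.sum_normSq hχ
  have h2 := Helper79Zeros.sum_normSq hθ
  have h3 : ∑ g ∈ Finset.univ.filter (fun g : H => g ∈ Z), ‖χ g‖ ^ 2 = (Nat.card H : ℝ) := by
    have : ∑ g ∈ Finset.univ.filter (fun g : H => g ∈ Z), ‖χ g‖ ^ 2 = ∑ z : Z, ‖χ z‖ ^ 2 :=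
      Finset.sum_subtype (Finset.univ.filter (fun g => g ∈ Z)) (by simp) (fun g => ‖χ g‖ ^ 2)
    rw [this]
    simp only [hres, norm_mul, Complex.norm_natCast, mul_pow]
    rw [← Finset.mul_sum, h2, ← Z.card_mul_index, ← he]
    push_cast; ring
  have h4 := Finset.sum_filter_add_sum_filter_not Finset.univ (fun g : H => g ∈ Z)
    (fun g => ‖χ g‖ ^ 2)
  rw [h3, h1] at h4
  have h5 : ∑ g ∈ Finset.univ.filter (fun g : H => ¬ g ∈ Z), ‖χ g‖ ^ 2 = 0 := by linarith
  rw [Finset.sum_eq_zero_iff_of_nonneg (fun _ _ => by positivity)] at h5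
  have := h5 h (by simp [hh])
  simpa using this

include hχ hθ he hres in
/-- no other irreducible character lies over `θ`. -/
theorem orth {ψ : H → ℂ} (hψ : IsIrrCharacter H ψ) (hne : ψ ≠ χ) :
    ∑ z : Z, conj (θ z) * ψ z = 0 := by
  classical
  have h1 := classInner_irr_ne hψ hχ hne
  unfold classInner at h1
  have h0 : (Nat.card H : ℂ) ≠ 0 := card_ne_zero
  have h2 : ∑ g : H, ψ g * conj (χ g) = 0 := (mul_eq_zero.mp h1).resolve_left (inv_ne_zero h0)
  have h3 : ∑ g : H, ψ g * conj (χ g) = ∑ z : Z, ψ z * conj (χ z) := by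
    rw [← Finset.sum_filter_add_sum_filter_not Finset.univ (fun g : H => g ∈ Z)]
    have : ∑ g ∈ Finset.univ.filter (fun g : H => ¬ g ∈ Z), ψ g * conj (χ g) = 0 := by
      apply Finset.sum_eq_zero
      intro g hg
      rw [vanish Z hχ hθ he hres g (by simpa using hg)]
      simp
    rw [this, add_zero]
    exact Finset.sum_subtype (Finset.univ.filter (fun g => g ∈ Z)) (by simp)
      (fun g => ψ g * conj (χ g))
  rw [h3] at h2
  simp only [hres, map_mul, Complex.conj_natCast] at h2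
  have h4 : (e : ℂ) * ∑ z : Z, conj (θ z) * ψ z = 0 := by
    rw [← h2, Finset.mul_sum]
    refine Finset.sum_congr rfl fun z _ => ?_
    ring
  have he0 : (e : ℂ) ≠ 0 := by exact_mod_cast e_ne_zero Z he
  exact (mul_eq_zero.mp h4).resolve_left he0

include hχ he hres in
omit [Fintype Z] in
theorem invariant (x : H) (z : Z) : θ ⟨x * z * x⁻¹, hZ.conj_mem z z.2 x⟩ = θ z := by
  have he0 : (e : ℂ) ≠ 0 := by exact_mod_cast e_ne_zero Z he
  have h1 := hres ⟨x * z * x⁻¹, hZ.conj_mem z z.2 x⟩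
  have h2 := hres z
  have h3 : χ (x * z * x⁻¹) = χ z := IsIrrCharacter.isClassFunction hχ z x
  simp only at h1
  rw [h3, h2] at h1
  exact (mul_left_cancel₀ he0 h1).symm

include hχ hθ he hres in
theorem twist_zero {ψ : H → ℂ} (hψ : IsIrrCharacter H ψ) (hne : ψ ≠ χ) (g : H) :
    ∑ z : Z, conj (θ z) * ψ (z * g) = 0 := by
  rw [twist Z (fun z => conj (θ z)) (fun x z => by rw [invariant Z hχ he hres x z]) hψ g,
    orth Z hχ hθ he hres hψ hne]
  simp

end ramified

end Cfsg.Agent.Lib.Helper79Ramified
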