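import Mathlib
import Cfsg.Prelude.Def_Characters
import Cfsg.Agent.Lib.Helper4Char
import Cfsg.Agent.Lib.Helper4Char4
import Cfsg.Agent.Lib.Helper82Linear

set_option autoImplicit false

/-! PROJECT 45 (S2336), piece `count`. -/

namespace Cfsg.Agent.Lib.Helper79Vcount

open Cfsg Cfsg.Agent.Lib.Helper4Char Cfsg.Agent.Lib.Helper4Char2 Cfsg.Agent.Lib.Helper4Char4

local notation "conj" => starRingEnd ℂ

theorem self_ne_zero {T : Type*} [Group T] [Fintype T] {f : T → ℂ} (h : f 1 ≠ 0) :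
    classInner f f ≠ 0 := by
  intro h3
  unfold classInner at h3
  have h4 : (Nat.card T : ℂ) ≠ 0 := card_ne_zero
  have h5 : ∑ n : T, f n * conj (f n) = 0 := by
    rcases mul_eq_zero.mp h3 with h | h
    · exact absurd h (inv_ne_zero h4)
    · exact h
  have h6 : ∑ n : T, ‖f n‖ ^ 2 = 0 := by
    have : ((∑ n : T, ‖f n‖ ^ 2 : ℝ) : ℂ) = 0 := by
      rw [← h5]
      push_cast
      refine Finset.sum_congr rfl fun n _ => ?_
      rw [Complex.mul_conj, Complex.normSq_eq_norm_sq]
      push_cast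
      rfl
    exact_mod_cast this
  have h7 := (Finset.sum_eq_zero_iff_of_nonneg (fun _ _ => by positivity)).mp h6 1
    (Finset.mem_univ _)
  have h8 : ‖f 1‖ = 0 := pow_eq_zero_iff (two_ne_zero) |>.mp h7
  exact h (norm_eq_zero.mp h8)

theorem count_irr {G : Type*} [Group G] [Fintype G] {I : Type*} [Fintype I] [DecidableEq I]
    (φ : I → G → ℂ) (hφ : ∀ i, IsCharacter G (φ i)) (h1 : ∀ i, φ i 1 ≠ 0) (i₀ : I)
    (τ : G → ℂ) (hτ : IsIrrCharacter G τ) (h0 : φ i₀ = 1 + τ)
    (hnorm : classInner (∑ i, φ i) (∑ i, φ i) = (Fintype.card I : ℂ) + 1) :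
    (∀ i, i ≠ i₀ → IsIrrCharacter G (φ i)) ∧
    (∀ i j, i ≠ i₀ → j ≠ i₀ → φ i = φ j → i = j) ∧ (∀ i, i ≠ i₀ → φ i ≠ τ) := by
  classical
  choose m hm using fun i j => IsCharacter.classInner_nat (hφ i) (hφ j)
  have hone : IsIrrCharacter G (1 : G → ℂ) := Cfsg.Agent.Lib.Helper82Linear.isIrrCharacter_one
  -- total
  have htot : ∑ i, ∑ j, m i j = Fintype.card I + 1 := by
    have : ((∑ i, ∑ j, m i j : ℕ) : ℂ) = ((Fintype.card I + 1 : ℕ) : ℂ) := by
      push_cast
      rw [← hnorm, classInner_sum_left]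
      refine Finset.sum_congr rfl fun i _ => ?_
      rw [classInner_sum_right]
      refine Finset.sum_congr rfl fun j _ => ?_
      exact (hm i j).symm
    exact_mod_cast this
  have hdiag : ∀ i, 1 ≤ m i i := by
    intro i
    rcases Nat.eq_zero_or_pos (m i i) with h | h
    · exfalso
      apply self_ne_zero (h1 i)
      rw [hm, h]; simp
    · exact h
  obtain ⟨t, ht⟩ := IsCharacter.classInner_nat (IsIrrCharacter.isCharacter hτ)
    (IsIrrCharacter.isCharacter hone)
  have ht' : classInner (1 : G → ℂ) τ = t := by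
    rw [← classInner_conj_symm, ht, Complex.conj_natCast]
  have hdiag0 : 2 ≤ m i₀ i₀ := by
    have : (m i₀ i₀ : ℂ) = ((2 + 2 * t : ℕ) : ℂ) := by
      rw [← hm, h0, classInner_add_left, classInner_add_right, classInner_add_right,
        classInner_irr_self hone, classInner_irr_self hτ, ht, ht']
      push_cast; ring
    have : m i₀ i₀ = 2 + 2 * t := by exact_mod_cast this
    omega
  -- split the sum
  have hsplit : ∑ i, ∑ j, m i j = ∑ i, m i i + ∑ i, ∑ j ∈ Finset.univ.erase i, m i j := by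
    rw [← Finset.sum_add_distrib]
    refine Finset.sum_congr rfl fun i _ => ?_
    rw [Finset.add_sum_erase _ _ (Finset.mem_univ i)]
  have hd : ∑ i, m i i = m i₀ i₀ + ∑ i ∈ Finset.univ.erase i₀, m i i :=
    (Finset.add_sum_erase _ _ (Finset.mem_univ i₀)).symm
  have hlow : Fintype.card I - 1 ≤ ∑ i ∈ Finset.univ.erase i₀, m i i := by
    have : ∑ i ∈ Finset.univ.erase i₀, 1 ≤ ∑ i ∈ Finset.univ.erase i₀, m i i :=
      Finset.sum_le_sum fun i _ => hdiag i
    simpa [Finset.card_erase_of_mem, Finset.card_univ] using this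
  have hpos : 1 ≤ Fintype.card I := Fintype.card_pos_iff.mpr ⟨i₀⟩
  have hoff : ∑ i, ∑ j ∈ Finset.univ.erase i, m i j = 0 := by omega
  have hrest : ∑ i ∈ Finset.univ.erase i₀, m i i = ∑ i ∈ Finset.univ.erase i₀, 1 := by
    have : ∑ i ∈ Finset.univ.erase i₀, 1 = Fintype.card I - 1 := by
      simp [Finset.card_erase_of_mem, Finset.card_univ]
    omega
  have hoff' : ∀ i j, i ≠ j → m i j = 0 := by
    intro i j hij
    have h2 := (Finset.sum_eq_zero_iff.mp hoff) i (Finset.mem_univ _)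
    exact (Finset.sum_eq_zero_iff.mp h2) j (Finset.mem_erase.mpr ⟨hij.symm, Finset.mem_univ _⟩)
  have hone' : ∀ i, i ≠ i₀ → m i i = 1 := by
    intro i hi
    have h2 := (Finset.sum_eq_sum_iff_of_le (fun i _ => hdiag i)).mp hrest.symm i
      (Finset.mem_erase.mpr ⟨hi, Finset.mem_univ _⟩)
    exact h2.symm
  refine ⟨?_, ?_, ?_⟩
  · intro i hi
    rw [isIrrCharacter_iff]
    refine ⟨hφ i, ?_⟩
    rw [hm, hone' i hi]; simp
  · intro i j hi _ hij
    by_contra hne
    have h2 := hm i j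
    rw [← hij, hm, hone' i hi, hoff' i j hne] at h2
    simp at h2
  · intro i hi hiτ
    have h2 := hm i i₀
    rw [hoff' i i₀ hi, h0, hiτ, classInner_add_right, classInner_irr_self hτ, ht] at h2
    have : t + 1 = 0 := by exact_mod_cast h2
    omega

end Cfsg.Agent.Lib.Helper79Vcount
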