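import Cfsg.Agent.Lib.Helper43R1Defs

set_option autoImplicit false

/-! Project 143, piece `srk1`: identities of `SL_2(K)` transported by `s_hom`
(the piece `shom` is an extra hypothesis `hs` at the end of every statement). -/

namespace Cfsg.Agent.Lib.Helper7StSrk1

open Matrix Cfsg.Agent.Lib.Helper43R1

section sl2

variable {K : Type*} [Field K]

def X (t : K) : SpecialLinearGroup (Fin 2) K := ⟨!![1, t; 0, 1], by simp [Matrix.det_fin_two]⟩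

def Y (t : K) : SpecialLinearGroup (Fin 2) K := ⟨!![1, 0; t, 1], by simp [Matrix.det_fin_two]⟩

def W (a : K) : SpecialLinearGroup (Fin 2) K := X a * Y (-a⁻¹) * X a

def W' (a : K) : SpecialLinearGroup (Fin 2) K := Y a * X (-a⁻¹) * Y a

theorem X_val (t : K) : (X t : Matrix (Fin 2) (Fin 2) K) = !![1, t; 0, 1] := rfl

theorem Y_val (t : K) : (Y t : Matrix (Fin 2) (Fin 2) K) = !![1, 0; t, 1] := rfl

theorem W_val {a : K} (ha : a ≠ 0) : (W a : Matrix (Fin 2) (Fin 2) K) = !![0, a; -a⁻¹, 0] := by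
  simp only [W, Matrix.SpecialLinearGroup.coe_mul, X_val, Y_val, Matrix.mul_fin_two]
  simp [ha]

theorem W'_val {a : K} (ha : a ≠ 0) : (W' a : Matrix (Fin 2) (Fin 2) K) = !![0, -a⁻¹; a, 0] := by
  simp only [W', Matrix.SpecialLinearGroup.coe_mul, X_val, Y_val, Matrix.mul_fin_two]
  simp [ha]

theorem W_inv_val {a : K} (ha : a ≠ 0) :
    ((W a)⁻¹ : SpecialLinearGroup (Fin 2) K).1 = !![0, -a; a⁻¹, 0] := by
  rw [Matrix.SpecialLinearGroup.coe_inv, W_val ha, Matrix.adjugate_fin_two_of]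
  simp

theorem W'_inv_val {a : K} (ha : a ≠ 0) :
    ((W' a)⁻¹ : SpecialLinearGroup (Fin 2) K).1 = !![0, a⁻¹; -a, 0] := by
  rw [Matrix.SpecialLinearGroup.coe_inv, W'_val ha, Matrix.adjugate_fin_two_of]
  simp

theorem H_val {a : K} (ha : a ≠ 0) :
    (W a * (W 1)⁻¹ : SpecialLinearGroup (Fin 2) K).1 = !![a, 0; 0, a⁻¹] := by
  rw [Matrix.SpecialLinearGroup.coe_mul, W_val ha, W_inv_val one_ne_zero, Matrix.mul_fin_two]
  simp

theorem H_inv_val {a : K} (ha : a ≠ 0) :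
    ((W a * (W 1)⁻¹)⁻¹ : SpecialLinearGroup (Fin 2) K).1 = !![a⁻¹, 0; 0, a] := by
  rw [Matrix.SpecialLinearGroup.coe_inv, H_val ha, Matrix.adjugate_fin_two_of]
  simp

theorem H'_val {a : K} (ha : a ≠ 0) :
    (W' a * (W' 1)⁻¹ : SpecialLinearGroup (Fin 2) K).1 = !![a⁻¹, 0; 0, a] := by
  rw [Matrix.SpecialLinearGroup.coe_mul, W'_val ha, W'_inv_val one_ne_zero, Matrix.mul_fin_two]
  simp

theorem i_hh_mul {a b : K} (ha : a ≠ 0) (hb : b ≠ 0) :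
    W (a * b) * (W 1)⁻¹ = (W a * (W 1)⁻¹) * (W b * (W 1)⁻¹) := by
  apply Subtype.ext
  rw [Matrix.SpecialLinearGroup.coe_mul (W a * (W 1)⁻¹), H_val (mul_ne_zero ha hb), H_val ha,
    H_val hb, Matrix.mul_fin_two]
  simp [mul_comm]

theorem i_hh_symm {a : K} (ha : a ≠ 0) : W' a * (W' 1)⁻¹ = (W a * (W 1)⁻¹)⁻¹ := by
  apply Subtype.ext
  rw [H'_val ha, H_inv_val ha]

theorem i_w_sq : W (1 : K) * W 1 = W (-1) * (W 1)⁻¹ := by
  apply Subtype.ext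
  rw [H_val (neg_ne_zero.2 one_ne_zero), Matrix.SpecialLinearGroup.coe_mul, W_val one_ne_zero,
    Matrix.mul_fin_two]
  simp [inv_neg]

theorem i_w_pow4 : W (1 : K) ^ 4 = 1 := by
  have h : W (1 : K) ^ 4 = (W 1 * W 1) * (W 1 * W 1) := by
    rw [show (4 : ℕ) = 2 + 2 from rfl, pow_add, pow_two]
  rw [h]
  apply Subtype.ext
  rw [Matrix.SpecialLinearGroup.coe_mul, Matrix.SpecialLinearGroup.coe_mul, W_val one_ne_zero,
    Matrix.mul_fin_two, Matrix.mul_fin_two]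
  simp [Matrix.one_fin_two]

theorem i_w_symm : W' (1 : K) = (W 1)⁻¹ := by
  apply Subtype.ext
  rw [W'_val one_ne_zero, W_inv_val one_ne_zero]
  simp

theorem i_w_hh_self {a : K} (ha : a ≠ 0) :
    W 1 * (W a * (W 1)⁻¹) * (W 1)⁻¹ = (W a * (W 1)⁻¹)⁻¹ := by
  apply Subtype.ext
  rw [H_inv_val ha, Matrix.SpecialLinearGroup.coe_mul, Matrix.SpecialLinearGroup.coe_mul (W 1),
    H_val ha, W_val one_ne_zero, W_inv_val one_ne_zero, Matrix.mul_fin_two, Matrix.mul_fin_two]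
  simp

theorem i_hh_ij {a : K} (ha : a ≠ 0) (u : K) :
    (W a * (W 1)⁻¹) * X u * (W a * (W 1)⁻¹)⁻¹ = X (a ^ 2 * u) := by
  apply Subtype.ext
  rw [Matrix.SpecialLinearGroup.coe_mul, Matrix.SpecialLinearGroup.coe_mul (W a * (W 1)⁻¹),
    H_val ha, H_inv_val ha, X_val, X_val, Matrix.mul_fin_two, Matrix.mul_fin_two]
  simp [ha]
  ring

theorem i_x_w_x : X (1 : K) * W 1 * X 1 * (W 1)⁻¹ * X 1 = W 1 := by
  apply Subtype.ext
  simp only [Matrix.SpecialLinearGroup.coe_mul]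
  rw [W_inv_val one_ne_zero, W_val one_ne_zero, X_val]
  simp

end sl2

variable {n : ℕ} {K : Type*} [Field K] {Γ : Type*} [Group Γ] (S : StR n K Γ)

/-- the statement of the piece `shom` for `S`. -/
def SHom : Prop := ∀ (i j k : Fin n), i ≠ j → i ≠ k → j ≠ k →
    ∃ f : SpecialLinearGroup (Fin 2) K →* Γ,
      (∀ t (g : SpecialLinearGroup (Fin 2) K), (g : Matrix (Fin 2) (Fin 2) K) = !![1, t; 0, 1] → f g = S.x i j t) ∧
      (∀ t (g : SpecialLinearGroup (Fin 2) K), (g : Matrix (Fin 2) (Fin 2) K) = !![1, 0; t, 1] → f g = S.x j i t)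

private theorem exists_f (hs : SHom S) (i j k : Fin n) (hij : i ≠ j) (hik : i ≠ k) (hjk : j ≠ k) :
    ∃ f : SpecialLinearGroup (Fin 2) K →* Γ, (∀ t, f (X t) = S.x i j t) ∧ (∀ t, f (Y t) = S.x j i t) ∧
      (∀ a, f (W a) = S.w i j a) ∧ (∀ a, f (W' a) = S.w j i a) ∧
      (∀ a, f (W a * (W 1)⁻¹) = S.hh i j a) ∧ (∀ a, f (W' a * (W' 1)⁻¹) = S.hh j i a) := by
  obtain ⟨f, h1, h2⟩ := hs i j k hij hik hjk
  have hX : ∀ t, f (X t) = S.x i j t := fun t => h1 t _ rfl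
  have hY : ∀ t, f (Y t) = S.x j i t := fun t => h2 t _ rfl
  have hW : ∀ a, f (W a) = S.w i j a := fun a => by
    rw [W, map_mul, map_mul, hX, hY, StR.w]
  have hW' : ∀ a, f (W' a) = S.w j i a := fun a => by
    rw [W', map_mul, map_mul, hX, hY, StR.w]
  refine ⟨f, hX, hY, hW, hW', fun a => ?_, fun a => ?_⟩
  · rw [map_mul, map_inv, hW, hW, StR.hh]
  · rw [map_mul, map_inv, hW', hW', StR.hh]

theorem hh_mul [Finite K] (i j k : Fin n) (hij : i ≠ j) (hik : i ≠ k) (hjk : j ≠ k) (a b : K)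
    (ha : a ≠ 0) (hb : b ≠ 0) (hs : SHom S) : S.hh i j (a * b) = S.hh i j a * S.hh i j b := by
  obtain ⟨f, hX, hY, hW, hW', hH, hH'⟩ := exists_f S hs i j k hij hik hjk
  rw [← hH, ← hH, ← hH, ← map_mul, i_hh_mul ha hb]

theorem hh_symm [Finite K] (i j k : Fin n) (hij : i ≠ j) (hik : i ≠ k) (hjk : j ≠ k) (a : K)
    (ha : a ≠ 0) (hs : SHom S) : S.hh j i a = (S.hh i j a)⁻¹ := by
  obtain ⟨f, hX, hY, hW, hW', hH, hH'⟩ := exists_f S hs i j k hij hik hjk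
  rw [← hH, ← hH', ← map_inv, i_hh_symm ha]

theorem w_sq [Finite K] (i j k : Fin n) (hij : i ≠ j) (hik : i ≠ k) (hjk : j ≠ k) (hs : SHom S) :
    S.w i j 1 * S.w i j 1 = S.hh i j (-1) := by
  obtain ⟨f, hX, hY, hW, hW', hH, hH'⟩ := exists_f S hs i j k hij hik hjk
  rw [← hH, ← hW, ← map_mul, i_w_sq]

theorem w_pow4 [Finite K] (i j k : Fin n) (hij : i ≠ j) (hik : i ≠ k) (hjk : j ≠ k) (hs : SHom S) :
    S.w i j 1 ^ 4 = 1 := by
  obtain ⟨f, hX, hY, hW, hW', hH, hH'⟩ := exists_f S hs i j k hij hik hjk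
  rw [← hW, ← map_pow, i_w_pow4, map_one]

theorem w_symm [Finite K] (i j k : Fin n) (hij : i ≠ j) (hik : i ≠ k) (hjk : j ≠ k) (hs : SHom S) :
    S.w j i 1 = (S.w i j 1)⁻¹ := by
  obtain ⟨f, hX, hY, hW, hW', hH, hH'⟩ := exists_f S hs i j k hij hik hjk
  rw [← hW, ← hW', ← map_inv, i_w_symm]

theorem w_hh_self [Finite K] (i j k : Fin n) (hij : i ≠ j) (hik : i ≠ k) (hjk : j ≠ k) (a : K)
    (ha : a ≠ 0) (hs : SHom S) : S.w i j 1 * S.hh i j a * (S.w i j 1)⁻¹ = (S.hh i j a)⁻¹ := by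
  obtain ⟨f, hX, hY, hW, hW', hH, hH'⟩ := exists_f S hs i j k hij hik hjk
  rw [← hH, ← hW, ← map_inv, ← map_inv, ← map_mul, ← map_mul, i_w_hh_self ha]

theorem hh_ij [Finite K] (i j k : Fin n) (hij : i ≠ j) (hik : i ≠ k) (hjk : j ≠ k) (a u : K)
    (ha : a ≠ 0) (hs : SHom S) : S.hh i j a * S.x i j u * (S.hh i j a)⁻¹ = S.x i j (a ^ 2 * u) := by
  obtain ⟨f, hX, hY, hW, hW', hH, hH'⟩ := exists_f S hs i j k hij hik hjk
  rw [← hH, ← hX, ← hX, ← map_inv, ← map_mul, ← map_mul, i_hh_ij ha]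

theorem x_w_x [Finite K] (i j k : Fin n) (hij : i ≠ j) (hik : i ≠ k) (hjk : j ≠ k) (hs : SHom S) :
    S.x i j 1 * S.w i j 1 * S.x i j 1 * (S.w i j 1)⁻¹ * S.x i j 1 = S.w i j 1 := by
  obtain ⟨f, hX, hY, hW, hW', hH, hH'⟩ := exists_f S hs i j k hij hik hjk
  rw [← hW, ← hX, ← map_inv, ← map_mul, ← map_mul, ← map_mul, ← map_mul, i_x_w_x]

end Cfsg.Agent.Lib.Helper7StSrk1
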