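import Cfsg.Agent.Lib.Helper43R1Defs
import Cfsg.Agent.Lib.Helper43StDefs
import Cfsg.Agent.Lib.Helper6SL

set_option autoImplicit false

/-! Project 143, piece `stpres`. -/

namespace Cfsg.Agent.Lib.Helper7StStpres

open Matrix Cfsg.Agent.Lib.Helper43R1 Cfsg.Agent.Lib.Helper43St

private theorem of_eq {n : ℕ} {K : Type*} [Field K] (p : Ix n × K) :
    (PresentedGroup.of p : StG n K) = PresentedGroup.mk (stRels n K) (FreeGroup.of p) := rfl

theorem st_StR (n : ℕ) (K : Type*) [Field K] :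
    ∃ S : StR n K (StG n K), ∀ (a : Ix n) (t : K), S.x a.1.1 a.1.2 t = PresentedGroup.of (a, t) := by
  refine ⟨{ x := fun i j t => if h : i ≠ j then PresentedGroup.of (⟨(i, j), h⟩, t) else 1
            add := ?_
            comm := ?_
            chain := ?_ }, ?_⟩
  · intro i j hij s t
    simp only [dif_pos hij]
    have hr : FreeGroup.of ((⟨(i, j), hij⟩ : Ix n), s) * FreeGroup.of ((⟨(i, j), hij⟩ : Ix n), t) *
        (FreeGroup.of ((⟨(i, j), hij⟩ : Ix n), s + t))⁻¹ ∈ stRels n K :=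
      Or.inl (Or.inl ⟨⟨(i, j), hij⟩, s, t, rfl⟩)
    have h1 := PresentedGroup.one_of_mem hr
    rw [map_mul, map_mul, map_inv, mul_inv_eq_one] at h1
    exact h1.symm
  · intro i j k l hij hkl hil hjk s t
    simp only [dif_pos hij, dif_pos hkl]
    have hr : FreeGroup.of ((⟨(i, j), hij⟩ : Ix n), s) * FreeGroup.of ((⟨(k, l), hkl⟩ : Ix n), t) *
        (FreeGroup.of ((⟨(i, j), hij⟩ : Ix n), s))⁻¹ * (FreeGroup.of ((⟨(k, l), hkl⟩ : Ix n), t))⁻¹
        ∈ stRels n K :=
      Or.inl (Or.inr ⟨⟨(i, j), hij⟩, ⟨(k, l), hkl⟩, s, t, hil, hjk, rfl⟩)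
    have h1 := PresentedGroup.one_of_mem hr
    rw [map_mul, map_mul, map_mul, map_inv, map_inv, mul_inv_eq_one, mul_inv_eq_iff_eq_mul] at h1
    exact h1
  · intro i j k hij hjk hik s t
    simp only [dif_pos hij, dif_pos hjk, dif_pos hik]
    have hr : FreeGroup.of ((⟨(i, j), hij⟩ : Ix n), s) * FreeGroup.of ((⟨(j, k), hjk⟩ : Ix n), t) *
        (FreeGroup.of ((⟨(i, j), hij⟩ : Ix n), s))⁻¹ * (FreeGroup.of ((⟨(j, k), hjk⟩ : Ix n), t))⁻¹ *
        (FreeGroup.of ((⟨(i, k), hik⟩ : Ix n), s * t))⁻¹ ∈ stRels n K :=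
      Or.inr ⟨⟨(i, j), hij⟩, ⟨(j, k), hjk⟩, hik, s, t, rfl, rfl⟩
    have h1 := PresentedGroup.one_of_mem hr
    rw [map_mul, map_mul, map_mul, map_mul, map_inv, map_inv, map_inv, mul_inv_eq_one] at h1
    exact h1
  · rintro ⟨⟨i, j⟩, hij⟩ t
    simp only [dif_pos hij]

variable {n : ℕ} {K : Type*} [Field K] {Γ : Type*} [Group Γ] (S : StR n K Γ)

theorem st_lift : ∃ f : StG n K →* Γ, ∀ (a : Ix n) (t : K),
    f (PresentedGroup.of (a, t)) = S.x a.1.1 a.1.2 t := by
  have h : ∀ r ∈ stRels n K,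
      FreeGroup.lift (fun p : Ix n × K => S.x p.1.1.1 p.1.1.2 p.2) r = 1 := by
    rintro r ((⟨a, t, u, rfl⟩ | ⟨a, b, t, u, h1, h2, rfl⟩) | ⟨a, b, h, t, u, h1, rfl⟩)
    · simp only [map_mul, map_inv, FreeGroup.lift_apply_of]
      rw [S.add _ _ a.2, mul_inv_cancel]
    · simp only [map_mul, map_inv, FreeGroup.lift_apply_of]
      rw [mul_inv_eq_one, mul_inv_eq_iff_eq_mul]
      exact S.comm _ _ _ _ a.2 b.2 h1 h2 t u
    · simp only [map_mul, map_inv, FreeGroup.lift_apply_of]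
      rw [mul_inv_eq_one]
      obtain ⟨⟨i, j⟩, hij⟩ := a
      obtain ⟨⟨k, l⟩, hkl⟩ := b
      simp only at h1 h hij hkl ⊢
      subst h1
      exact S.chain _ _ _ hij hkl h t u
  exact ⟨PresentedGroup.toGroup h, fun a t => PresentedGroup.toGroup.of h⟩

theorem sl_StR (n : ℕ) (K : Type*) [Field K] :
    ∃ S : StR n K (SpecialLinearGroup (Fin n) K), ∀ i j t, i ≠ j → S.x i j t = tv i j t := by
  refine ⟨{ x := fun i j t => tv i j t
            add := ?_
            comm := ?_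
            chain := ?_ }, fun _ _ _ _ => rfl⟩
  · intro i j hij s t
    simp only [tv, dif_pos hij]
    exact (Matrix.SpecialLinearGroup.transvection_add hij s t)
  · intro i j k l hij hkl hil hjk s t
    apply Subtype.ext
    rw [Matrix.SpecialLinearGroup.coe_mul, Matrix.SpecialLinearGroup.coe_mul, tv_val i j hij,
      tv_val k l hkl]
    simp only [mul_add, add_mul, Matrix.mul_one, Matrix.one_mul,
      Matrix.single_mul_single_of_ne _ _ _ _ hjk, Matrix.single_mul_single_of_ne _ _ _ _ hil.symm]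
    abel
  · intro i j k hij hjk hik s t
    have := Cfsg.Agent.Lib.Helper6SL.commutator_transvection hik hij hjk s t
    rw [commutatorElement_def] at this
    simp only [tv, dif_pos hij, dif_pos hjk, dif_pos hik]
    exact this

end Cfsg.Agent.Lib.Helper7StStpres
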