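import Cfsg.Agent.Lib.Helper7StStpres

set_option autoImplicit false

/-! Project 143, piece `stsys` (the piece `st3iso` is the extra hypothesis `h3` at the end). -/

namespace Cfsg.Agent.Lib.Helper7StStsys

open Matrix Cfsg.Agent.Lib.Helper43R1 Cfsg.Agent.Lib.Helper43St Cfsg.Agent.Lib.Helper7StStpres

theorem st_sys (n : ℕ) (hn : 3 ≤ n) (K : Type*) [Field K] [Finite K]
    (h3 : ∃ e : StG 3 K ≃* SpecialLinearGroup (Fin 3) K,
      ∀ (a : Ix 3) (t : K), e (PresentedGroup.of (a, t)) = tv a.1.1 a.1.2 t) :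
    ∃ S : StSys n K (StG n K), ∀ (a : Ix n) (t : K), S.x a.1.1 a.1.2 t = PresentedGroup.of (a, t) := by
  obtain ⟨S0, hS0⟩ := st_StR n K
  obtain ⟨e, he⟩ := h3
  obtain ⟨S1, hS1⟩ := sl_StR n K
  obtain ⟨π, hπ⟩ := st_lift S1
  refine ⟨{ x := S0.x
            tri := ?_
            dis := ?_
            π := π
            hπ := ?_
            gen := ?_ }, hS0⟩
  · intro τ hτ
    let T : StR 3 K (StG n K) :=
      { x := fun a b t => S0.x (τ a) (τ b) t
        add := fun i j hij s t => S0.add _ _ (fun h => hij (hτ h)) s t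
        comm := fun i j k l hij hkl hil hjk s t =>
          S0.comm _ _ _ _ (fun h => hij (hτ h)) (fun h => hkl (hτ h)) (fun h => hil (hτ h))
            (fun h => hjk (hτ h)) s t
        chain := fun i j k hij hjk hik s t =>
          S0.chain _ _ _ (fun h => hij (hτ h)) (fun h => hjk (hτ h)) (fun h => hik (hτ h)) s t }
    obtain ⟨f₀, hf₀⟩ := st_lift T
    refine ⟨f₀.comp e.symm.toMonoidHom, fun a b t hab => ?_⟩
    have h1 : e.symm (tv a b t) = PresentedGroup.of ((⟨(a, b), hab⟩ : Ix 3), t) := by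
      rw [MulEquiv.symm_apply_eq, he]
    rw [MonoidHom.comp_apply]
    change f₀ (e.symm (tv a b t)) = _
    rw [h1, hf₀]
  · intro i j k l hij hkl _ hil hjk _ s t
    exact S0.comm i j k l hij hkl hil hjk s t
  · intro i j t hij
    have h1 := hS0 ⟨(i, j), hij⟩ t
    simp only at h1
    rw [h1, hπ]
    exact hS1 i j t hij
  · rw [eq_top_iff, ← PresentedGroup.closure_range_of (stRels n K)]
    apply Subgroup.closure_mono
    rintro _ ⟨⟨a, t⟩, rfl⟩
    exact ⟨a.1.1, a.1.2, t, a.2, (hS0 a t).symm⟩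

end Cfsg.Agent.Lib.Helper7StStsys
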