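import Mathlib
import Cfsg.Agent.Lib.Helper44SLDefs
import Cfsg.Agent.Lib.Helper44VDefs
import Cfsg.Agent.Lib.Helper40SLhc
import Cfsg.Agent.S0157

set_option autoImplicit false
open Module

namespace Cfsg.Agent.Lib.Helper7Vvnorm

section ext
variable {F : Type*} [Field F] {V : Type*} [AddCommGroup V] [Module F V] [FiniteDimensional F V]

/-- two linearly independent families of fewer than `dim V` vectors are conjugate under `SL(V)` -/
theorem exists_det_one {k : ℕ} (a a' : Fin k → V) (ha : LinearIndependent F a)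
    (ha' : LinearIndependent F a') (hk : k < finrank F V) :
    ∃ g : V ≃ₗ[F] V, LinearMap.det g.toLinearMap = 1 ∧ ∀ i, g (a i) = a' i := by
  let f := ha.linearCombinationEquiv.symm ≪≫ₗ ha'.linearCombinationEquiv
  obtain ⟨g₀, hg₀⟩ := Submodule.exists_linearEquiv_restrict_eq f
  have hg₀a : ∀ i, g₀ (a i) = a' i := by
    intro i
    have h1 := hg₀ ⟨a i, Submodule.subset_span ⟨i, rfl⟩⟩
    rw [← h1]
    have h2 : ha.linearCombinationEquiv.symm ⟨a i, Submodule.subset_span ⟨i, rfl⟩⟩
        = Finsupp.single i 1 := ha.repr_eq_single i _ rfl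
    simp [f, h2]
  set W := Submodule.span F (Set.range a) with hW
  have hWne : W ≠ ⊤ := by
    intro h
    have h1 : finrank F W = k := by
      rw [hW, finrank_span_eq_card ha, Fintype.card_fin]
    rw [h, finrank_top] at h1
    omega
  obtain ⟨e, -, he⟩ := SetLike.exists_of_lt (lt_top_iff_ne_top.2 hWne)
  obtain ⟨φ, hφe, hφW⟩ := Submodule.exists_dual_map_eq_bot_of_notMem he inferInstance
  have hφa : ∀ i, φ (a i) = 0 := by
    intro i
    have : φ (a i) ∈ W.map φ := Submodule.mem_map_of_mem (Submodule.subset_span ⟨i, rfl⟩)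
    rw [hφW] at this
    simpa using this
  have hd0 : LinearMap.det g₀.toLinearMap ≠ 0 := (LinearEquiv.isUnit_det' g₀).ne_zero
  set c := (LinearMap.det g₀.toLinearMap)⁻¹ with hc
  have hc0 : c ≠ 0 := inv_ne_zero hd0
  have hv : 1 + φ (((c - 1) / φ e) • e) = c := by
    rw [map_smul, smul_eq_mul, div_mul_cancel₀ _ hφe]
    ring
  have hu : IsUnit (1 + φ (((c - 1) / φ e) • e)) := by
    rw [hv]; exact hc0.isUnit
  let h := LinearEquiv.dilatransvection hu
  refine ⟨h ≪≫ₗ g₀, ?_, ?_⟩
  · rw [LinearEquiv.coe_trans, LinearMap.det_comp, LinearEquiv.dilatransvection.coe_toLinearMap,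
      LinearMap.transvection.det, hv, hc, mul_inv_cancel₀ hd0]
  · intro i
    rw [LinearEquiv.trans_apply, LinearEquiv.dilatransvection.apply, hφa, zero_smul, add_zero, hg₀a]

end ext

open Matrix Cfsg Cfsg.Agent.Lib.Helper44Wt Cfsg.Agent.Lib.Helper44SLDefs Cfsg.Agent.Lib.Helper44VDefs

variable {F : Type*} [Field F] [Fintype F] [DecidableEq F] {n : ℕ}

/-- matrix version -/
theorem exists_sl {k : ℕ} (a a' : Fin k → (Fin n → F)) (ha : LinearIndependent F a)
    (ha' : LinearIndependent F a') (hk : k < n) :
    ∃ g : Matrix.SpecialLinearGroup (Fin n) F, ∀ i, (g : Matrix (Fin n) (Fin n) F).mulVec (a i) = a' i := by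
  obtain ⟨g, hdet, hg⟩ := exists_det_one a a' ha ha' (by simpa using hk)
  refine ⟨⟨LinearMap.toMatrix' g.toLinearMap, by rw [LinearMap.det_toMatrix', hdet]⟩, fun i => ?_⟩
  show (LinearMap.toMatrix' g.toLinearMap).mulVec (a i) = a' i
  rw [LinearMap.toMatrix'_mulVec]
  exact hg i

/-- the nonzero vectors -/
abbrev X (F : Type*) [Field F] (n : ℕ) : Type _ := {v : Fin n → F // v ≠ 0}

/-- the action of `SL_n` on the nonzero vectors -/
def actX : MulAction (Matrix.SpecialLinearGroup (Fin n) F) (X F n) where
  smul g v := ⟨(g : Matrix (Fin n) (Fin n) F).mulVec v.1, by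
    intro h
    apply v.2
    have h1 : ((g⁻¹ * g : Matrix.SpecialLinearGroup (Fin n) F) : Matrix (Fin n) (Fin n) F).mulVec v.1 = 0 := by
      rw [Matrix.SpecialLinearGroup.coe_mul, ← Matrix.mulVec_mulVec, h, Matrix.mulVec_zero]
    simpa using h1⟩
  one_smul v := Subtype.ext (by
    show ((1 : Matrix.SpecialLinearGroup (Fin n) F) : Matrix (Fin n) (Fin n) F).mulVec v.1 = v.1
    simp)
  mul_smul g h v := Subtype.ext (by
    show ((g * h : Matrix.SpecialLinearGroup (Fin n) F) : Matrix (Fin n) (Fin n) F).mulVec v.1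
      = (g : Matrix (Fin n) (Fin n) F).mulVec ((h : Matrix (Fin n) (Fin n) F).mulVec v.1)
    rw [Matrix.SpecialLinearGroup.coe_mul, Matrix.mulVec_mulVec])

attribute [local instance] actX

theorem smul_val (g : Matrix.SpecialLinearGroup (Fin n) F) (v : X F n) :
    (g • v).1 = (g : Matrix (Fin n) (Fin n) F).mulVec v.1 := rfl

theorem card_fixed (g : Matrix.SpecialLinearGroup (Fin n) F) :
    Nat.card (MulAction.fixedBy (X F n) g)
      = Nat.card {v : Fin n → F // v ≠ 0 ∧ (g : Matrix (Fin n) (Fin n) F).mulVec v = v} := by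
  apply Nat.card_congr
  exact {
    toFun := fun p => ⟨p.1.1, p.1.2, congrArg Subtype.val p.2⟩
    invFun := fun q => ⟨⟨q.1, q.2.1⟩, Subtype.ext q.2.2⟩
    left_inv := fun p => rfl
    right_inv := fun q => rfl }

theorem card_orbits (hn : 3 ≤ n) :
    Nat.card (Quotient (MulAction.orbitRel (Matrix.SpecialLinearGroup (Fin n) F) (X F n × X F n)))
      = Fintype.card F := by
  let i0 : Fin n := ⟨0, by omega⟩
  let i1 : Fin n := ⟨1, by omega⟩
  have h01 : i0 ≠ i1 := by simp [i0, i1, Fin.ext_iff]
  let e0 : Fin n → F := Pi.single i0 1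
  let e1 : Fin n → F := Pi.single i1 1
  have he0 : e0 ≠ 0 := by
    intro h
    have := congrFun h i0
    simp [e0] at this
  have he1 : e1 ≠ 0 := by
    intro h
    have := congrFun h i1
    simp [e1] at this
  have hce0 : ∀ c : Fˣ, (c : F) • e0 ≠ 0 := fun c => smul_ne_zero c.ne_zero he0
  let s := MulAction.orbitRel (Matrix.SpecialLinearGroup (Fin n) F) (X F n × X F n)
  let Φ : Option Fˣ → Quotient s := fun o => match o with
    | some c => Quotient.mk s (⟨e0, he0⟩, ⟨(c : F) • e0, hce0 c⟩)
    | none => Quotient.mk s (⟨e0, he0⟩, ⟨e1, he1⟩)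
  have hli01 : LinearIndependent F ![e0, e1] := by
    rw [LinearIndependent.pair_iff' he0]
    intro a h
    have := congrFun h i1
    simp [e0, e1, h01.symm] at this
  have hbij : Function.Bijective Φ := by
    constructor
    · intro o o' h
      rcases o with _ | c <;> rcases o' with _ | c'
      · rfl
      · exfalso
        obtain ⟨g, hg⟩ := Quotient.exact h
        have h1 : (g : Matrix (Fin n) (Fin n) F).mulVec e0 = e0 :=
          congrArg (fun p : X F n × X F n => p.1.1) hg
        have h2 : (g : Matrix (Fin n) (Fin n) F).mulVec ((c' : F) • e0) = e1 :=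
          congrArg (fun p : X F n × X F n => p.2.1) hg
        rw [Matrix.mulVec_smul, h1] at h2
        exact (LinearIndependent.pair_iff' he0).1 hli01 _ h2
      · exfalso
        obtain ⟨g, hg⟩ := Quotient.exact h.symm
        have h1 : (g : Matrix (Fin n) (Fin n) F).mulVec e0 = e0 :=
          congrArg (fun p : X F n × X F n => p.1.1) hg
        have h2 : (g : Matrix (Fin n) (Fin n) F).mulVec ((c : F) • e0) = e1 :=
          congrArg (fun p : X F n × X F n => p.2.1) hg
        rw [Matrix.mulVec_smul, h1] at h2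
        exact (LinearIndependent.pair_iff' he0).1 hli01 _ h2
      · obtain ⟨g, hg⟩ := Quotient.exact h
        have h1 : (g : Matrix (Fin n) (Fin n) F).mulVec e0 = e0 :=
          congrArg (fun p : X F n × X F n => p.1.1) hg
        have h2 : (g : Matrix (Fin n) (Fin n) F).mulVec ((c' : F) • e0) = (c : F) • e0 :=
          congrArg (fun p : X F n × X F n => p.2.1) hg
        rw [Matrix.mulVec_smul, h1] at h2
        have h3 := congrFun h2 i0
        simp only [e0, Pi.smul_apply, Pi.single_eq_same, smul_eq_mul, mul_one] at h3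
        rw [Units.ext h3]
    · intro y
      induction y using Quotient.inductionOn with
      | _ p =>
        obtain ⟨⟨v, hv⟩, ⟨w, hw⟩⟩ := p
        by_cases hvw : ∃ a : F, a • v = w
        · obtain ⟨a, rfl⟩ := hvw
          have ha : a ≠ 0 := by
            rintro rfl
            simp at hw
          obtain ⟨g, hg⟩ := exists_sl (n := n) ![e0] ![v]
            (by simpa using LinearIndependent.of_subsingleton (R := F) (v := ![e0]) 0 (by simpa using he0))
            (by simpa using LinearIndependent.of_subsingleton (R := F) (v := ![v]) 0 (by simpa using hv)) (by omega)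
          have hg0 : (g : Matrix (Fin n) (Fin n) F).mulVec e0 = v := hg 0
          refine ⟨some (Units.mk0 a ha), ?_⟩
          apply Quotient.sound
          refine ⟨g⁻¹, ?_⟩
          rw [inv_smul_eq_iff]
          apply Prod.ext
          · exact Subtype.ext hg0.symm
          · apply Subtype.ext
            show a • v = (g : Matrix (Fin n) (Fin n) F).mulVec ((Units.mk0 a ha : F) • e0)
            rw [Matrix.mulVec_smul, hg0]
            rfl
        · have hli : LinearIndependent F ![v, w] := by
            rw [LinearIndependent.pair_iff' hv]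
            intro a h
            exact hvw ⟨a, h⟩
          obtain ⟨g, hg⟩ := exists_sl (n := n) ![e0, e1] ![v, w] hli01 hli (by omega)
          have hg0 : (g : Matrix (Fin n) (Fin n) F).mulVec e0 = v := hg 0
          have hg1 : (g : Matrix (Fin n) (Fin n) F).mulVec e1 = w := hg 1
          refine ⟨none, ?_⟩
          apply Quotient.sound
          refine ⟨g⁻¹, ?_⟩
          rw [inv_smul_eq_iff]
          apply Prod.ext
          · exact Subtype.ext hg0.symm
          · exact Subtype.ext hg1.symm
  rw [← Nat.card_congr (Equiv.ofBijective Φ hbij), Nat.card_eq_fintype_card, Fintype.card_option,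
    Fintype.card_units]
  have : 0 < Fintype.card F := Fintype.card_pos
  omega

theorem v_norm (n : ℕ) (hn : 3 ≤ n) :
    classInner (fun g : Matrix.SpecialLinearGroup (Fin n) F =>
      (Nat.card {v : Fin n → F // v ≠ 0 ∧ (g : Matrix (Fin n) (Fin n) F).mulVec v = v} : ℂ))
      (fun g : Matrix.SpecialLinearGroup (Fin n) F =>
      (Nat.card {v : Fin n → F // v ≠ 0 ∧ (g : Matrix (Fin n) (Fin n) F).mulVec v = v} : ℂ)) =
      Fintype.card F := by
  classical
  have h1 := MulAction.sum_card_fixedBy_eq_card_orbits_mul_card_group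
    (Matrix.SpecialLinearGroup (Fin n) F) (X F n × X F n)
  simp only [← Nat.card_eq_fintype_card, Cfsg.Agent.S0157.card_fixedBy_prod, card_fixed,
    card_orbits hn] at h1
  simp only [Cfsg.classInner, Complex.conj_natCast]
  have h2 : (∑ g : Matrix.SpecialLinearGroup (Fin n) F,
      (Nat.card {v : Fin n → F // v ≠ 0 ∧ (g : Matrix (Fin n) (Fin n) F).mulVec v = v} : ℂ)
        * (Nat.card {v : Fin n → F // v ≠ 0 ∧ (g : Matrix (Fin n) (Fin n) F).mulVec v = v} : ℂ))
      = (Nat.card F : ℂ) * (Nat.card (Matrix.SpecialLinearGroup (Fin n) F) : ℂ) := by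
    exact_mod_cast h1
  rw [h2, Nat.card_eq_fintype_card (α := F)]
  have hG : (Nat.card (Matrix.SpecialLinearGroup (Fin n) F) : ℂ) ≠ 0 := by
    exact_mod_cast Nat.card_pos.ne'
  field_simp

end Cfsg.Agent.Lib.Helper7Vvnorm
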