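import Mathlib
import Cfsg.Agent.Lib.Helper81D1Top
import Cfsg.Agent.S0936
import Cfsg.Agent.Lib.Helper81Subsec2
import Cfsg.Agent.Lib.Helper81RankOne

set_option autoImplicit false
set_option linter.unusedVariables false
set_option linter.unusedSectionVars false

namespace Cfsg.Agent.Lib.Helper81D1Prin

open Cfsg
open Cfsg.Agent.Lib.Helper81Local Cfsg.Agent.Lib.Helper81Rank Cfsg.Agent.Lib.Helper84Subsec
  Cfsg.Agent.Lib.Helper84Subsec2 Cfsg.Agent.Lib.Helper84Contrib Cfsg.Agent.Lib.Helper80Trace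
  Cfsg.Agent.Lib.Helper82Quot Cfsg.Agent.Lib.Helper78MajP Cfsg.Agent.Lib.Helper78AbNil
  Cfsg.Agent.Lib.Helper82Major Cfsg.Agent.Lib.Helper81D1Defs Cfsg.Agent.Lib.Helper81D1Main
  Cfsg.Agent.Lib.Helper81D1Top Cfsg.Agent.Lib.Helper81Defect
open Cfsg.Agent.Lib.Helper81D1Quot (quot_block)
open scoped ComplexConjugate

universe u

section CD

variable {K : Type u} [Group K] [Fintype K] {p : ℕ} [Fact p.Prime] {M : Ideal AlgInt}

/-- blocks with a central defect group. -/
theorem central_defect (hM : IsPModular p M) {c : Set (IrrCharacter K)} (hc : IsPBlock M c)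
    {D : Subgroup K} (hD : IsDefectGroup p M c D) (hDc : D ≤ Subgroup.center K) :
    blockRank p c = 1 ∧ ∀ θ ∈ c, ∃ r : ℝ, (r : ℂ) = regInner p (θ : K → ℂ) (θ : K → ℂ) ∧
      (p : ℝ) ^ blockDefect p c * r ≤ 1 := by
  classical
  obtain ⟨ε, hmax⟩ := Cfsg.Agent.Lib.Helper80Corr.exists_maximal_of_defectGroup hM hc hD
  have hab : ∀ x ∈ D, ∀ y ∈ D, x * y = y * x := fun x hx y _ =>
    (Subgroup.mem_center_iff.1 (hDc hx) y).symm
  have hst : pstab D ε ≤ Subgroup.centralizer (D : Set K) := by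
    intro g _
    rw [Subgroup.mem_centralizer_iff]
    intro x hx
    exact (Subgroup.mem_center_iff.1 (hDc hx) g).symm
  refine ⟨blockRank_of_abelian hM hmax hab hst, fun θ hθ => ⟨mr p M D ε θ 1, mr_one hM hmax hθ,
    (facts_of_abelian hM hmax hab hst hθ).2⟩⟩

end CD

variable {G : Type u} [Group G] [Fintype G] {p : ℕ} [Fact p.Prime] {M : Ideal AlgInt}

theorem card_le_of_central (hM : IsPModular p M) {H : Subgroup G} [Fintype H] {z : H}
    (hH : H = Subgroup.centralizer ({(z : G)} : Set G)) {k : ℕ} (hz : orderOf (z : G) = p ^ k)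
    {b : Set (IrrCharacter H)} (hb : IsPBlock M b) {D : Subgroup H} (hD : IsDefectGroup p M b D)
    (hDc : D ≤ Subgroup.center H) (X : Set (IrrCharacter G))
    (hX : ∀ χ ∈ X, ∃ ξ ∈ b, yy p b z 1 χ (Pi.single ξ 1) ≠ 0) :
    Nat.card X ≤ p ^ blockDefect p b := by
  classical
  have hp : p.Prime := Fact.out
  have hMp := hM.2.1.isPrime
  have hcen : ∀ h : H, h * z = z * h := Cfsg.Agent.Lib.Helper78Maj.central_of_eq hH
  obtain ⟨hl, hnorm⟩ := central_defect hM hb hD hDc
  obtain ⟨θ, hθ⟩ := Cfsg.Agent.Lib.Helper81Block.isPBlock_nonempty hb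
  have hθ1 : (θ : H → ℂ) 1 ≠ 0 := Cfsg.Agent.Lib.Helper81Base.irr_one_ne_zero θ
  have hnz : ∀ χ ∈ X, ∃ s' ⊆ (Finset.univ : Finset Unit), 1 ≤ s'.card ∧
      ∀ j ∈ s', yy p b z 1 χ (Pi.single θ 1) ≠ 0 := by
    intro χ hχ
    refine ⟨Finset.univ, Finset.Subset.refl _, by simp, fun _ _ h0 => ?_⟩
    obtain ⟨ξ, hξ, hne⟩ := hX χ hχ
    apply hne
    rw [yy_eq_fp b hcen, FF_single, if_pos hθ] at h0
    rw [yy_eq_fp b hcen, FF_single, if_pos hξ]
    have hpd : (p : ℂ) ^ blockDefect p b ≠ 0 := pow_ne_zero _ (by exact_mod_cast hp.ne_zero)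
    have h1 := (mul_eq_zero.1 h0).resolve_left hpd
    have h2 : regInner p (fp b ((z : G) ^ 1) (χ : G → ℂ)) (ξ : H → ℂ)
        = conj ((ξ : H → ℂ) 1 / (θ : H → ℂ) 1) *
          regInner p (fp b ((z : G) ^ 1) (χ : G → ℂ)) (θ : H → ℂ) := by
      rw [← regInner_smul_right]
      unfold regInner
      congr 1
      apply Finset.sum_congr rfl
      intro y _
      by_cases hy : p ∣ orderOf y
      · rw [if_neg (not_not.2 hy), if_neg (not_not.2 hy)]
      · rw [if_pos hy, if_pos hy]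
        have h3 := Cfsg.Agent.Lib.Helper81RankOne.proportional hl hξ hθ 1
          (by rw [orderOf_one]; exact hp.one_lt.ne' ∘ Nat.dvd_one.1) y hy
        have h4 : (ξ : H → ℂ) y = ((ξ : H → ℂ) 1 / (θ : H → ℂ) 1) * (θ : H → ℂ) y := by
          field_simp
          linear_combination h3
        rw [Pi.smul_apply, smul_eq_mul, ← h4]
    rw [h2, h1, mul_zero, mul_zero]
  have hmain := card_mul_le hM (Cfsg.Agent.Lib.Helper81Subsec.isBlockUnion_of_isPBlock hb) X hcen
    hz hH (Finset.univ : Finset Unit) (fun _ => Pi.single θ 1) 1 (fun _ _ _ => one_dvd _) 1 hnz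
  have hbet : bet p b (Pi.single θ 1) (Pi.single θ 1) ≤ 1 := by
    obtain ⟨r, hr, hr1⟩ := hnorm θ hθ
    have h1 := bet_single_of_mem (p := p) hθ (Pi.single θ 1)
    rw [FF_single, if_pos hθ, ← hr] at h1
    have h2 : ((bet p b (Pi.single θ 1) (Pi.single θ 1) : ℤ) : ℝ)
        = (p : ℝ) ^ blockDefect p b * r := by exact_mod_cast h1
    have h3 : ((bet p b (Pi.single θ 1) (Pi.single θ 1) : ℤ) : ℝ) ≤ 1 := by rw [h2]; exact hr1
    exact_mod_cast h3
  simp only [Nat.cast_one, one_mul, one_pow, mul_one, Finset.univ_unique, Finset.sum_singleton]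
    at hmain
  have h5 : (Nat.card X : ℤ) ≤ (p : ℤ) ^ blockDefect p b := by
    calc (Nat.card X : ℤ) ≤ (p : ℤ) ^ blockDefect p b * bet p b (Pi.single θ 1) (Pi.single θ 1) :=
          hmain
      _ ≤ (p : ℤ) ^ blockDefect p b * 1 := mul_le_mul_of_nonneg_left hbet (by positivity)
      _ = _ := mul_one _
  exact_mod_cast h5

theorem minVal_principal [M.IsPrime] (K : Type*) [Group K] [Fintype K] :
    minVal p (principalBlock M K) = 0 := by
  have h1 : Cfsg.Agent.Lib.Helper82Linear.irrOne K ∈ principalBlock M K :=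
    Cfsg.Agent.Lib.Helper81Block.sameBlock_refl _
  have h2 := minVal_le (p := p) h1
  have h3 : charDegree ((Cfsg.Agent.Lib.Helper82Linear.irrOne K : IrrCharacter K) : K → ℂ) = 1 := by
    have := Cfsg.Agent.Lib.Helper81Base.charDegree_eq (Cfsg.Agent.Lib.Helper82Linear.irrOne K)
    have h4 : ((Cfsg.Agent.Lib.Helper82Linear.irrOne K : IrrCharacter K) : K → ℂ) 1 = 1 := rfl
    rw [h4] at this
    exact_mod_cast this
  rw [h3] at h2
  simpa using h2

theorem prin_main (hM : IsPModular p M) (x : G) (k : ℕ) (hx : orderOf x = p ^ k)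
    (hc : (Nat.card (Subgroup.centralizer ({x} : Set G))).factorization p ≤ 2) :
    Nat.card {χ : IrrCharacter G // χ ∈ principalBlock M G ∧ ¬ p ∣ charDegree (χ : G → ℂ)}
      ≤ p ^ 2 := by
  classical
  have hp : p.Prime := Fact.out
  have hMp := hM.2.1.isPrime
  set B₀ := principalBlock M G with hB₀
  have hB : IsPBlock M B₀ := Cfsg.Agent.Lib.Helper81Subsec2.isPBlock_principalBlock
  set X : Set (IrrCharacter G) := {χ | χ ∈ B₀ ∧ ¬ p ∣ charDegree (χ : G → ℂ)} with hXdef
  show Nat.card X ≤ p ^ 2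
  set H := Subgroup.centralizer ({x} : Set G) with hHdef
  let _ : Fintype H := Fintype.ofFinite H
  set z : H := ⟨x, Subgroup.mem_centralizer_singleton_iff.mpr rfl⟩ with hzdef
  have hH : H = Subgroup.centralizer ({(z : G)} : Set G) := rfl
  have hcen : ∀ h : H, h * z = z * h := Cfsg.Agent.Lib.Helper78Maj.central_of_eq hH
  set b₀ := principalBlock M H with hb₀
  have hb : IsPBlock M b₀ := Cfsg.Agent.Lib.Helper81Subsec2.isPBlock_principalBlock
  have hind : IsInducedBlock M H b₀ B₀ :=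
    (Cfsg.Agent.S0936.result p M hM H b₀
      (Cfsg.Agent.Lib.Helper81Second3.induced_defined_centralizer hM x ⟨k, hx⟩ b₀ hb)).2 rfl
  have hdb : blockDefect p b₀ = (Nat.card H).factorization p := by
    rw [blockDefect_def, minVal_principal, Nat.sub_zero]
  have hzk : z ^ (p ^ k) = 1 := by
    apply Subtype.ext
    rw [Subgroup.coe_pow, Subgroup.coe_one, ← hx]
    exact pow_orderOf_eq_one _
  have hX : ∀ χ ∈ X, ∃ ξ ∈ b₀, yy p b₀ z 1 χ (Pi.single ξ 1) ≠ 0 := by
    intro χ hχ
    have h0 : blockHeight p B₀ (χ : G → ℂ) = 0 := by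
      rw [blockHeight_def, Nat.factorization_eq_zero_of_not_dvd hχ.2, Nat.zero_sub]
    obtain ⟨ξ, hξ, hu⟩ := exists_unit hM hind hcen hzk hχ.1 h0
    exact ⟨ξ, hξ, fun h => hu (by rw [h]; exact memLocalIdeal_zero)⟩
  have hpow : ∀ q : ℕ, q ≤ 2 → p ^ q ≤ p ^ 2 := fun q hq => Nat.pow_le_pow_right hp.pos hq
  rcases Nat.eq_zero_or_pos k with hk0 | hkpos
  · -- `x = 1`
    subst hk0
    have hx1 : x = 1 := by
      rw [pow_zero] at hx; exact orderOf_eq_one_iff.1 hx
    have htop : H = ⊤ := by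
      rw [hHdef, hx1, eq_top_iff]
      intro g _
      rw [Subgroup.mem_centralizer_singleton_iff]; simp
    have hcard : Nat.card H = Nat.card G := by rw [htop, Subgroup.card_top]
    have hdB : blockDefect p B₀ ≤ 2 := by
      rw [blockDefect_def, minVal_principal, Nat.sub_zero, ← hcard]; exact hc
    have h1 := main hM _ G B₀ hB rfl
    unfold bd at h1
    rw [if_pos hdB] at h1
    have h2 : Nat.card X ≤ Nat.card B₀ := Nat.card_mono (Set.toFinite _) (fun χ hχ => hχ.1)
    exact h2.trans (h1.trans (hpow _ hdB))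
  obtain ⟨D, hD⟩ := Cfsg.Agent.Lib.Helper20Induced.exists_defectGroup hM hb
  have hDcard := Cfsg.Agent.Lib.Helper20DefCard.card_defectGroup hM hb hD
  set Z : Subgroup H := Subgroup.zpowers z with hZdef
  have hZc : Z ≤ Subgroup.center H := by
    rw [hZdef, Subgroup.zpowers_le, Subgroup.mem_center_iff]
    exact hcen
  have hZn : Z.Normal := ⟨fun n hn g => by
    have := Subgroup.mem_center_iff.1 (hZc hn) g
    rw [this, mul_inv_cancel_right]; exact hn⟩
  have hZcard : Nat.card Z = p ^ k := by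
    rw [hZdef, Nat.card_zpowers, ← hx, ← Subgroup.orderOf_coe]
  have hZp : IsPGroup p Z := IsPGroup.of_card hZcard
  have hZD : Z ≤ D := Cfsg.Agent.Lib.Helper20Brauer.le_defectGroup_of_normal hM Z hZp hb hD
  have hkq : k ≤ blockDefect p b₀ := by
    have := Subgroup.card_le_of_le hZD
    rw [hZcard, hDcard] at this
    exact (Nat.pow_le_pow_iff_right hp.one_lt).1 this
  have hq2 : blockDefect p b₀ ≤ 2 := by rw [hdb]; exact hc
  by_cases hkeq : k = blockDefect p b₀
  · have hDZ : D = Z := by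
      symm
      apply Subgroup.eq_of_le_of_card_ge hZD
      rw [hZcard, hDcard, hkeq]
    rw [hDZ] at hD
    exact (card_le_of_central hM hH hx hb hD hZc X hX).trans (hpow _ hq2)
  · have hk1 : k = 1 := by omega
    have hq : blockDefect p b₀ = 2 := by omega
    subst hk1
    exact key hM hH (by rw [pow_one] at hx; exact hx) hb hq X hX

end Cfsg.Agent.Lib.Helper81D1Prin
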