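import Mathlib

/-!
# Project 83 (KUL): vocabulary of the pure algebra part

`R` is a finite dimensional algebra over a field `k`, `J` a subspace which is closed under
multiplication and consists of nilpotent elements (the radical of a local corner `i R i`).
Products and powers of subspaces are Mathlib's (`J * J`, `J ^ n`).
-/

set_option autoImplicit false

namespace Cfsg.Agent.Lib.Helper81KulDefs

variable {k : Type*} [Field k] {R : Type*} [Ring R] [Algebra k R]

/-- a multiplicatively closed subspace of nilpotent elements. -/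
structure NilAlg (J : Submodule k R) : Prop where
  mul : ∀ a ∈ J, ∀ b ∈ J, a * b ∈ J
  nil : ∀ a ∈ J, IsNilpotent a

/-- the span of the commutators of `J`. -/
def Kc (J : Submodule k R) : Submodule k R :=
  Submodule.span k {x | ∃ a ∈ J, ∃ b ∈ J, x = a * b - b * a}

/-- `lam` is a symmetrizing form of the unitization `k + J`. -/
structure SymF (J : Submodule k R) (lam : R →ₗ[k] k) : Prop where
  symm : ∀ a ∈ J, ∀ b ∈ J, lam (a * b) = lam (b * a)
  nd : ∀ a ∈ J, a ≠ 0 → lam a ≠ 0 ∨ ∃ b ∈ J, lam (a * b) ≠ 0

/-- the corner `i R i`. -/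
def Cor (i : R) : Submodule k R where
  carrier := {a | i * a = a ∧ a * i = a}
  add_mem' := by
    rintro a b ⟨h1, h2⟩ ⟨h3, h4⟩
    exact ⟨by rw [mul_add, h1, h3], by rw [add_mul, h2, h4]⟩
  zero_mem' := ⟨mul_zero _, zero_mul _⟩
  smul_mem' := by
    rintro c a ⟨h1, h2⟩
    exact ⟨by rw [mul_smul_comm, h1], by rw [smul_mul_assoc, h2]⟩

theorem mem_Cor {i a : R} : a ∈ Cor (k := k) i ↔ i * a = a ∧ a * i = a := Iff.rfl

/-- the span of the nilpotent elements of the corner. -/
def Jc (i : R) : Submodule k R :=
  Submodule.span k {a | a ∈ Cor (k := k) i ∧ IsNilpotent a}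

/-- the corner is local with residue field `k`. -/
def LocC (k : Type*) [Field k] {R : Type*} [Ring R] [Algebra k R] (i : R) : Prop :=
  ∀ a ∈ Cor (k := k) i, ∃ c : k, IsNilpotent (a - c • i)

end Cfsg.Agent.Lib.Helper81KulDefs
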