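import Mathlib
import Cfsg.Prelude.Def_Blocks
import Cfsg.Agent.Lib.Helper81Under

set_option autoImplicit false

/-! The sum of the squares of the degrees of the members of a block lying over a given
character of a normal subgroup `N` is divisible by the `p`-part of the index of `N`. -/

namespace Cfsg.Agent.Lib.Helper81RelDeg

open Cfsg
open Cfsg.Agent.Lib.Helper81Local Cfsg.Agent.Lib.Helper81Base Cfsg.Agent.Lib.Helper81Block
  Cfsg.Agent.Lib.Helper21Cover
open scoped ComplexConjugate

variable {G : Type*} [Group G] [Fintype G] {p : ℕ} {M : Ideal AlgInt} {N : Subgroup G} [Fintype N]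

theorem res_classfn (χ : IrrCharacter G) : IsClassFunction N (fun n : N => (χ : G → ℂ) n) := by
  intro n m
  have := irr_conj χ (n : G) (m : G)
  simpa using this

open scoped Classical in
/-- Clifford: the degree of `χ` is carried by one orbit. -/
theorem sum_orb_inner (hN : N.Normal) (θ : IrrCharacter N) (χ : IrrCharacter G) :
    ∑ θ' ∈ Cfsg.Agent.Lib.Helper81Under.orb hN ⊤ θ,
      classInner (fun n : N => (χ : G → ℂ) n) (θ' : N → ℂ) * (θ' : N → ℂ) 1
      = if Over χ θ then (χ : G → ℂ) 1 else 0 := by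
  split_ifs with h
  · have h1 := congrFun (Helper4Char.classFunction_eq_sum _ (res_classfn (N := N) χ)) 1
    simp only [Finset.sum_apply, Pi.smul_apply, smul_eq_mul, OneMemClass.coe_one] at h1
    rw [h1]
    apply Finset.sum_subset (Finset.subset_univ _)
    intro θ' _ hθ'
    by_cases h2 : Over χ θ'
    · exfalso
      obtain ⟨g, hg⟩ := over_conj hN h h2
      exact hθ' (Cfsg.Agent.Lib.Helper81Under.mem_orb.2 ⟨g, Subgroup.mem_top g, hg⟩)
    · unfold Over at h2
      push Not at h2
      rw [h2, zero_mul]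
  · apply Finset.sum_eq_zero
    intro θ' hθ'
    obtain ⟨g, _, hg⟩ := Cfsg.Agent.Lib.Helper81Under.mem_orb.1 hθ'
    by_cases h2 : Over χ θ'
    · exfalso
      apply h
      have := over_cjI hN h2 g⁻¹
      rwa [hg, cjI_cjI, mul_inv_cancel, cjI_one] at this
    · unfold Over at h2
      push Not at h2
      rw [h2, zero_mul]

open scoped Classical in
theorem sum_block_inner (B : Set (IrrCharacter G)) (θ' : IrrCharacter N) :
    ∑ χ : IrrCharacter G, (if χ ∈ B then (χ : G → ℂ) 1 *
      classInner (fun n : N => (χ : G → ℂ) n) (θ' : N → ℂ) else 0)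
      = (N.index : ℂ) * ((θ' : N → ℂ) 1 * om (fun n : N => blockCoeff B (n : G)) θ') := by
  have hG : (Nat.card G : ℂ) ≠ 0 := Cfsg.Agent.Lib.Helper81Base.card_ne_zero
  have hN0 : (Nat.card N : ℂ) ≠ 0 := Cfsg.Agent.Lib.Helper81Base.card_ne_zero
  have hidx : (N.index : ℂ) = (Nat.card G : ℂ) * (Nat.card N : ℂ)⁻¹ := by
    have := N.card_mul_index
    have h2 : (Nat.card N : ℂ) * (N.index : ℂ) = (Nat.card G : ℂ) := by exact_mod_cast this
    rw [← h2]
    field_simp
  have h1 : (θ' : N → ℂ) 1 * om (fun n : N => blockCoeff B (n : G)) θ'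
      = ∑ n : N, blockCoeff B (n : G) * (θ' : N → ℂ) n := by
    unfold om
    rw [Finset.mul_sum]
    apply Finset.sum_congr rfl
    intro n _
    have := irr_one_ne_zero θ'
    field_simp
  rw [h1]
  have h2 : ∑ n : N, blockCoeff B (n : G) * (θ' : N → ℂ) n
      = ∑ n : N, blockCoeff B ((n : G)⁻¹) * conj ((θ' : N → ℂ) n) := by
    apply Fintype.sum_equiv (Equiv.inv N)
    intro n
    simp only [Equiv.inv_apply, Subgroup.coe_inv, inv_inv]
    rw [irr_inv θ' n, Complex.conj_conj]
  rw [h2]
  simp only [blockCoeff_eq, classInner]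
  simp only [Finset.mul_sum, Finset.sum_mul]
  have h3 : ∀ χ : IrrCharacter G, (if χ ∈ B then ∑ n : N, (χ : G → ℂ) 1 *
      ((Nat.card N : ℂ)⁻¹ * ((χ : G → ℂ) n * conj ((θ' : N → ℂ) n))) else 0)
      = ∑ n : N, (if χ ∈ B then (χ : G → ℂ) 1 *
      ((Nat.card N : ℂ)⁻¹ * ((χ : G → ℂ) n * conj ((θ' : N → ℂ) n))) else 0) := by
    intro χ
    split_ifs
    · rfl
    · simp
  simp only [h3]
  rw [Finset.sum_comm]
  apply Finset.sum_congr rfl
  intro n _
  apply Finset.sum_congr rfl
  intro χ _
  split_ifs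
  · rw [irr_inv χ (n : G), Complex.conj_conj, hidx]
    field_simp
  · simp

open scoped Classical in
/-- the sum of squares of degrees of the members of `B` over `θ` is `|G:N|` times a local
integer. -/
theorem sum_sq_over [M.IsPrime] (hN : N.Normal) {B : Set (IrrCharacter G)} (hB : IsPBlock M B)
    (θ : IrrCharacter N) :
    ∃ r : ℂ, MemLocalRing M r ∧
      ∑ χ : IrrCharacter G, (if χ ∈ B ∧ Over χ θ then (χ : G → ℂ) 1 ^ 2 else 0)
        = (N.index : ℂ) * r := by
  refine ⟨∑ θ' ∈ Cfsg.Agent.Lib.Helper81Under.orb hN ⊤ θ,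
    (θ' : N → ℂ) 1 * ((θ' : N → ℂ) 1 * om (fun n : N => blockCoeff B (n : G)) θ'), ?_, ?_⟩
  · apply memLocalRing_sum
    intro θ' _
    have hd : MemLocalRing M ((θ' : N → ℂ) 1) := by
      rw [← charDegree_eq θ']
      exact memLocalRing_natCast _
    refine memLocalRing_mul hd (memLocalRing_mul hd (om_memLocalRing ?_ ?_ θ'))
    · intro n m
      have := blockCoeff_classfn B (n : G) (m : G)
      simpa using this
    · intro n
      exact osima hB _
  · rw [Finset.mul_sum]
    have h1 : ∀ θ' ∈ Cfsg.Agent.Lib.Helper81Under.orb hN ⊤ θ,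
        (N.index : ℂ) * ((θ' : N → ℂ) 1 * ((θ' : N → ℂ) 1 *
          om (fun n : N => blockCoeff B (n : G)) θ'))
        = ∑ χ : IrrCharacter G, (if χ ∈ B then (χ : G → ℂ) 1 *
          (classInner (fun n : N => (χ : G → ℂ) n) (θ' : N → ℂ) * (θ' : N → ℂ) 1) else 0) := by
      intro θ' _
      have := sum_block_inner B θ'
      calc (N.index : ℂ) * ((θ' : N → ℂ) 1 * ((θ' : N → ℂ) 1 *
          om (fun n : N => blockCoeff B (n : G)) θ'))
          = ((N.index : ℂ) * ((θ' : N → ℂ) 1 * om (fun n : N => blockCoeff B (n : G)) θ'))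
            * (θ' : N → ℂ) 1 := by ring
        _ = _ := by
          rw [← this, Finset.sum_mul]
          apply Finset.sum_congr rfl
          intro χ _
          split_ifs
          · ring
          · simp
    rw [Finset.sum_congr rfl h1, Finset.sum_comm]
    apply Finset.sum_congr rfl
    intro χ _
    by_cases hχ : χ ∈ B
    · simp only [hχ, if_true, true_and]
      rw [← Finset.mul_sum, sum_orb_inner hN θ χ]
      split_ifs
      · ring
      · simp
    · simp [hχ]

end Cfsg.Agent.Lib.Helper81RelDeg
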