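import Mathlib
import Cfsg.Prelude.Def_Blocks
import Cfsg.Agent.Lib.Helper81Local
import Cfsg.Agent.Lib.Helper79Teich

set_option autoImplicit false

/-!
`2`-adic integrality of the coefficients of an element of `ℤ[ω]`, `ω` a primitive `2^(j+1)`-th
root of unity: if `∑_{i < 2^j} c_i ω^i` is divisible by `2^h` in the local ring, every `c_i` is.
-/

namespace Cfsg.Agent.Lib.Helper82CycTwo

open Cfsg
open Cfsg.Agent.Lib.Helper81Local
open Polynomial

theorem two_eq (j : ℕ) : ∀ ω : ℂ, ω ^ (2 ^ j) = -1 →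
    ∃ u : ℂ, IsIntegral ℤ u ∧ 2 = (ω - 1) ^ (2 ^ j) * u := by
  induction j with
  | zero =>
    intro ω h
    simp only [pow_zero, pow_one] at h
    exact ⟨-1, isIntegral_one.neg, by rw [h]; norm_num⟩
  | succ j ih =>
    intro ω h
    have hω : IsIntegral ℤ ω :=
      IsIntegral.of_pow (n := 2 ^ (j + 1)) (by positivity) (by rw [h]; exact isIntegral_one.neg)
    obtain ⟨u, hu, e⟩ := ih (ω ^ 2) (by rw [← pow_mul, ← pow_succ']; exact h)
    obtain ⟨r, hr⟩ : ∃ r, 2 ^ j = r + 1 :=
      ⟨2 ^ j - 1, by have := Nat.one_le_two_pow (n := j); omega⟩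
    obtain ⟨v, hv⟩ : ∃ v : ℂ, v = 1 + (ω + 1) * (ω ^ 2 - 1) ^ r * u := ⟨_, rfl⟩
    have hvi : IsIntegral ℤ v := by
      rw [hv]
      exact isIntegral_one.add (((hω.add isIntegral_one).mul
        (((hω.pow 2).sub isIntegral_one).pow r)).mul hu)
    have h1 : ω + 1 = (ω - 1) * v := by
      have h2 : ω + 1 = (ω - 1) + 2 := by ring
      rw [h2, hv]
      conv_lhs => rw [e, hr, pow_succ]
      ring
    have h3 : ω ^ 2 - 1 = (ω - 1) ^ 2 * v := by
      have : ω ^ 2 - 1 = (ω - 1) * (ω + 1) := by ring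
      rw [this, h1]
      ring
    refine ⟨v ^ (2 ^ j) * u, (hvi.pow _).mul hu, ?_⟩
    conv_lhs => rw [e, h3]
    rw [mul_pow, ← pow_mul, ← pow_succ']
    ring

variable {M : Ideal AlgInt}

theorem C_two_dvd (hM : IsPModular 2 M) {j : ℕ} {ω : ℂ} (hω : ω ^ (2 ^ j) = -1) :
    ∀ (n : ℕ) (f : ℤ[X]) (s : ℕ), f.degree < n → s + n ≤ 2 ^ j →
      MemLocalRing M ((ω - 1) ^ s * aeval ω f / 2) → (C 2 : ℤ[X]) ∣ f := by
  have hMp := hM.2.1.isPrime
  have hωi : IsIntegral ℤ ω :=
    IsIntegral.of_pow (n := 2 ^ j) (by positivity) (by rw [hω]; exact isIntegral_one.neg)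
  have hπ0 : ω - 1 ≠ 0 := by
    intro h0
    have : ω = 1 := by linear_combination h0
    rw [this, one_pow] at hω
    norm_num at hω
  have hπM : MemLocalIdeal M (ω - 1) := by
    apply Cfsg.Agent.Lib.Helper79Teich.sub_one_of_pow_p_pow hM (j + 1)
      (memLocalRing_of_isIntegral hωi)
    rw [pow_succ, pow_mul, hω]
    norm_num
    exact memLocalIdeal_zero
  obtain ⟨u, hu, e2⟩ := two_eq j ω hω
  intro n
  induction n with
  | zero =>
    intro f s hf _ _
    have : f = 0 := by
      rw [← degree_eq_bot]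
      exact Nat.WithBot.lt_zero_iff.1 hf
    rw [this]
    exact dvd_zero _
  | succ n ih =>
    intro f s hf hs hmem
    rcases eq_or_ne f 0 with rfl | hf0
    · exact dvd_zero _
    set q := f /ₘ (X - C 1) with hq
    have hdec : f = C (f.eval 1) + (X - C 1) * q := by
      have := modByMonic_add_div f (X - C (1 : ℤ))
      rw [modByMonic_X_sub_C_eq_C_eval] at this
      exact this.symm
    have hqdeg : q.degree < n := by
      have h1 : q.degree < f.degree :=
        degree_divByMonic_lt f _ hf0 (by rw [degree_X_sub_C]; exact zero_lt_one)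
      have h2 : f.natDegree < n + 1 := by
        rw [degree_eq_natDegree hf0] at hf
        exact_mod_cast hf
      have h3 : f.degree ≤ n := by
        rw [degree_eq_natDegree hf0]
        exact_mod_cast Nat.lt_succ_iff.1 h2
      exact lt_of_lt_of_le h1 h3
    set r : ℤ := f.eval 1 with hr
    set Q : ℂ := aeval ω q with hQ
    have hQi : MemLocalRing M Q := by
      apply memLocalRing_of_isIntegral
      rw [hQ, aeval_def, eval₂_eq_sum_range]
      apply IsIntegral.sum
      intro i _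
      exact (isIntegral_algebraMap).mul (hωi.pow i)
    have hev : aeval ω f = (r : ℂ) + (ω - 1) * Q := by
      conv_lhs => rw [hdec]
      simp [hQ]
    rw [hev] at hmem
    set w : ℂ := (ω - 1) ^ s * ((r : ℂ) + (ω - 1) * Q) / 2 with hw
    obtain ⟨e, he⟩ : ∃ e, 2 ^ j = s + 1 + e := ⟨2 ^ j - (s + 1), by omega⟩
    have h3 : (r : ℂ) = (ω - 1) * ((ω - 1) ^ e * u * w - Q) := by
      have h4 : (ω - 1) ^ s * ((r : ℂ) + (ω - 1) * Q) = 2 * w := by
        rw [hw]; ring
      rw [e2, he, pow_add, pow_succ] at h4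
      have h5 : (ω - 1) ^ s ≠ 0 := pow_ne_zero _ hπ0
      have h6 : (r : ℂ) + (ω - 1) * Q = (ω - 1) * (ω - 1) ^ e * u * w := by
        apply mul_left_cancel₀ h5
        rw [h4]; ring
      linear_combination h6
    have hr2 : (2 : ℤ) ∣ r := by
      have : MemLocalIdeal M (r : ℂ) := by
        rw [h3]
        apply memLocalIdeal_mul_right hπM
        apply memLocalRing_sub _ hQi
        exact memLocalRing_mul (memLocalRing_mul (memLocalRing_pow (MemLocalIdeal.memLocalRing hπM) _)
          (memLocalRing_of_isIntegral hu)) hmem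
      exact_mod_cast (memLocalIdeal_intCast_iff hM).1 this
    obtain ⟨r', hr'⟩ := hr2
    have h7 : MemLocalRing M ((ω - 1) ^ (s + 1) * aeval ω q / 2) := by
      have : (ω - 1) ^ (s + 1) * aeval ω q / 2 = w - (ω - 1) ^ s * (r' : ℂ) := by
        rw [hw, hr', ← hQ]
        push_cast
        ring
      rw [this]
      exact memLocalRing_sub hmem (memLocalRing_mul (memLocalRing_pow (MemLocalIdeal.memLocalRing hπM) _)
        (memLocalRing_intCast _))
    have h8 := ih q (s + 1) hqdeg (by omega) h7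
    rw [hdec]
    apply dvd_add
    · rw [hr']
      exact ⟨C r', by rw [C_mul]⟩
    · exact Dvd.dvd.mul_left h8 _

theorem pow_dvd_coeff (hM : IsPModular 2 M) {j : ℕ} {ω : ℂ} (hω : ω ^ (2 ^ j) = -1) (h : ℕ) :
    ∀ c : ℕ → ℤ, MemLocalRing M ((∑ i ∈ Finset.range (2 ^ j), (c i : ℂ) * ω ^ i) / 2 ^ h) →
      ∀ i < 2 ^ j, (2 : ℤ) ^ h ∣ c i := by
  have hMp := hM.2.1.isPrime
  induction h with
  | zero => intro c _ i _; simp
  | succ h ih =>
    intro c hc
    set f : ℤ[X] := ∑ i ∈ Finset.range (2 ^ j), C (c i) * X ^ i with hf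
    have hcoef : ∀ m, f.coeff m = if m < 2 ^ j then c m else 0 := by
      intro m
      rw [hf, finsetSum_coeff]
      simp only [coeff_C_mul_X_pow]
      rw [Finset.sum_ite_eq]
      simp
    have hdeg : f.degree < (2 ^ j : ℕ) := by
      rw [degree_lt_iff_coeff_zero]
      intro m hm
      rw [hcoef, if_neg (by omega)]
    have hev : aeval ω f = ∑ i ∈ Finset.range (2 ^ j), (c i : ℂ) * ω ^ i := by
      rw [hf, map_sum]
      apply Finset.sum_congr rfl
      intro i _
      simp
    have h1 : MemLocalRing M ((ω - 1) ^ 0 * aeval ω f / 2) := by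
      have : (ω - 1) ^ 0 * aeval ω f / 2
          = 2 ^ h * ((∑ i ∈ Finset.range (2 ^ j), (c i : ℂ) * ω ^ i) / 2 ^ (h + 1)) := by
        rw [hev, pow_zero, one_mul, pow_succ]
        have : (2 : ℂ) ^ h ≠ 0 := pow_ne_zero _ two_ne_zero
        field_simp
      rw [this]
      exact memLocalRing_mul (memLocalRing_pow (by exact_mod_cast memLocalRing_natCast 2) _) hc
    have h2 := C_two_dvd hM hω (2 ^ j) f 0 hdeg (by omega) h1
    rw [C_dvd_iff_dvd_coeff] at h2
    have h3 : ∀ i, ∃ c', i < 2 ^ j → c i = 2 * c' := by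
      intro i
      by_cases hi : i < 2 ^ j
      · have := h2 i
        rw [hcoef, if_pos hi] at this
        obtain ⟨c', hc'⟩ := this
        exact ⟨c', fun _ => hc'⟩
      · exact ⟨0, fun h => absurd h hi⟩
    choose c' hc' using h3
    have h4 : MemLocalRing M ((∑ i ∈ Finset.range (2 ^ j), (c' i : ℂ) * ω ^ i) / 2 ^ h) := by
      have : (∑ i ∈ Finset.range (2 ^ j), (c' i : ℂ) * ω ^ i) / 2 ^ h
          = (∑ i ∈ Finset.range (2 ^ j), (c i : ℂ) * ω ^ i) / 2 ^ (h + 1) := by
        have e : ∑ i ∈ Finset.range (2 ^ j), (c i : ℂ) * ω ^ i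
            = 2 * ∑ i ∈ Finset.range (2 ^ j), (c' i : ℂ) * ω ^ i := by
          rw [Finset.mul_sum]
          apply Finset.sum_congr rfl
          intro i hi
          rw [hc' i (Finset.mem_range.1 hi)]
          push_cast
          ring
        rw [e, pow_succ]
        have : (2 : ℂ) ^ h ≠ 0 := pow_ne_zero _ two_ne_zero
        field_simp
      rw [this]
      exact hc
    intro i hi
    rw [hc' i hi, pow_succ, mul_comm]
    exact mul_dvd_mul_left 2 (ih c' h4 i hi)

/-- the rational case. -/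
theorem pow_dvd_int (hM : IsPModular 2 M) (h : ℕ) (c : ℤ)
    (hc : MemLocalRing M ((c : ℂ) / 2 ^ h)) : (2 : ℤ) ^ h ∣ c := by
  have := pow_dvd_coeff hM (j := 0) (ω := -1) (by simp) h (fun _ => c) (by simpa using hc) 0
    (by simp)
  exact this

end Cfsg.Agent.Lib.Helper82CycTwo
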