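import Mathlib
import Cfsg.Agent.Lib.Helper84Ramanujan

set_option autoImplicit false

/-!
Ramanujan sums for prime powers and the "trace" of sums of `2^k`-th roots of unity.
-/

namespace Cfsg.Agent.Lib.Helper84Ramanujan2

open Cfsg.Agent.Lib.Helper84Ramanujan
open scoped ComplexConjugate

theorem sum_units_pow (p : ℕ) (hp : p.Prime) (k : ℕ) {η : ℂ} (hη : η ^ (p ^ (k + 1)) = 1) :
    ∑ t ∈ (Finset.range (p ^ (k + 1))).filter (fun t => t.Coprime (p ^ (k + 1))), η ^ t
      = (if η = 1 then ((p ^ (k + 1) : ℕ) : ℂ) else 0) - (if η ^ p = 1 then ((p ^ k : ℕ) : ℂ) else 0) := by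
  rw [sum_units_split p hp k (fun t => η ^ t), geom_root hη]
  have h2 : (η ^ p) ^ (p ^ k) = 1 := by rw [← pow_mul, ← pow_succ']; exact hη
  simp only [pow_mul]
  rw [geom_root h2]

/-- the trace of a sum of `2^k`-th roots of unity. -/
theorem sum_units_two {ι : Type*} (k : ℕ) (s : Finset ι) (c : ι → ℤ) (η : ι → ℂ)
    (hη : ∀ i ∈ s, η i ^ (2 ^ k) = 1) :
    ∑ t ∈ (Finset.range (2 ^ k)).filter (fun t => t.Coprime (2 ^ k)),
        ∑ i ∈ s, (c i : ℂ) * η i ^ t
      = ((2 ^ k).totient : ℂ) *
        ((2 * ∑ i ∈ s with η i = 1, c i - ∑ i ∈ s with η i ^ 2 = 1, c i : ℤ) : ℂ) := by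
  classical
  rcases k with _ | k
  · have h1 : (Finset.range (2 ^ 0)).filter (fun t => t.Coprime (2 ^ 0)) = {0} := by
      ext t; simp
    rw [h1, Finset.sum_singleton]
    have h2 : ∀ i ∈ s, η i = 1 := by
      intro i hi
      have := hη i hi
      simpa using this
    have h3 : s.filter (fun i => η i = 1) = s := Finset.filter_true_of_mem h2
    have h4 : s.filter (fun i => η i ^ 2 = 1) = s :=
      Finset.filter_true_of_mem (fun i hi => by rw [h2 i hi]; simp)
    rw [h3, h4]
    simp only [pow_zero, mul_one, Nat.totient_one, Nat.cast_one, one_mul]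
    push_cast
    ring
  · rw [Finset.sum_comm]
    have h1 : ∀ i ∈ s, ∑ t ∈ (Finset.range (2 ^ (k + 1))).filter (fun t => t.Coprime (2 ^ (k + 1))),
        (c i : ℂ) * η i ^ t = (c i : ℂ) * ((if η i = 1 then ((2 ^ (k + 1) : ℕ) : ℂ) else 0)
          - (if η i ^ 2 = 1 then ((2 ^ k : ℕ) : ℂ) else 0)) := by
      intro i hi
      rw [← Finset.mul_sum, sum_units_pow 2 Nat.prime_two k (hη i hi)]
    rw [Finset.sum_congr rfl h1, Nat.totient_prime_pow_succ Nat.prime_two]
    push_cast
    rw [Finset.sum_filter, Finset.sum_filter, Finset.mul_sum, ← Finset.sum_sub_distrib,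
      Finset.mul_sum]
    apply Finset.sum_congr rfl
    intro i _
    split_ifs <;> push_cast <;> ring

/-- a sum of a symmetric function over the off-diagonal-like set `η² ≠ 1` is even. -/
theorem even_sum_swap {I : Type*} [Fintype I] (c : I × I → ℤ) (η : I × I → ℂ)
    (hc : ∀ a b, c (a, b) = c (b, a)) (hη : ∀ a b, η (b, a) = conj (η (a, b)))
    (hn : ∀ i, η i * conj (η i) = 1) :
    Even (∑ i : I × I with ¬ η i ^ 2 = 1, c i) := by
  classical
  have h : ((∑ i : I × I with ¬ η i ^ 2 = 1, c i : ℤ) : ZMod 2) = 0 := by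
    push_cast
    apply Finset.sum_involution (fun i _ => Prod.swap i)
    · intro i _
      obtain ⟨a, b⟩ := i
      simp only [Prod.swap_prod_mk]
      rw [hc b a]
      exact CharTwo.add_self_eq_zero _
    · intro i hi _ hsw
      obtain ⟨a, b⟩ := i
      simp only [Prod.swap_prod_mk, Prod.mk.injEq] at hsw
      obtain ⟨rfl, -⟩ := hsw
      apply (Finset.mem_filter.1 hi).2
      have h1 := hη b b
      have h2 := hn (b, b)
      rw [← h1] at h2
      rw [sq]; exact h2
    · intro i hi
      obtain ⟨a, b⟩ := i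
      rw [Finset.mem_filter] at hi ⊢
      refine ⟨Finset.mem_univ _, ?_⟩
      simp only [Prod.swap_prod_mk]
      rw [hη a b, ← map_pow]
      intro h
      apply hi.2
      have := congrArg conj h
      simpa using this
    · intro i _
      exact Prod.swap_swap i
  rw [ZMod.intCast_zmod_eq_zero_iff_dvd] at h
  exact even_iff_two_dvd.2 (by exact_mod_cast h)

end Cfsg.Agent.Lib.Helper84Ramanujan2
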