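import Mathlib
import Cfsg.Prelude.Def_Blocks
import Cfsg.Prelude.Def_BlockRank
import Cfsg.Agent.Lib.Helper82Major
import Cfsg.Agent.Lib.Helper82CycTwo
import Cfsg.Agent.Lib.Helper84Ramanujan2

set_option autoImplicit false
set_option linter.unusedSectionVars false

/-!
`p = 2`: the integral coefficient vectors `av χ i` of the generalized decomposition numbers of a
subsection `(z, b)` with respect to the basis `1, ω, …, ω^(N-1)` of `ℤ[ω]`, which is orthogonal
for the trace form.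
-/

namespace Cfsg.Agent.Lib.Helper82Coef

open Cfsg
open Cfsg.Agent.Lib.Helper81Local Cfsg.Agent.Lib.Helper81Base Cfsg.Agent.Lib.Helper81BB
  Cfsg.Agent.Lib.Helper81Block Cfsg.Agent.Lib.Helper81Orth Cfsg.Agent.Lib.Helper81Orth2
  Cfsg.Agent.Lib.Helper81Part Cfsg.Agent.Lib.Helper81Defect Cfsg.Agent.Lib.Helper81Reg
  Cfsg.Agent.Lib.Helper81Subsec Cfsg.Agent.Lib.Helper81Rank
  Cfsg.Agent.Lib.Helper84Subsec Cfsg.Agent.Lib.Helper84Subsec2 Cfsg.Agent.Lib.Helper84Contrib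
  Cfsg.Agent.Lib.Helper82Lattice Cfsg.Agent.Lib.Helper82Major
open scoped ComplexConjugate

section roots

theorem root_decomp {k : ℕ} {ω : ℂ} (hω : IsPrimitiveRoot ω (2 ^ k)) {η : ℂ}
    (hη : η ^ (2 ^ k) = 1) :
    ∃ (s : ℤ) (i : ℕ), i < 2 ^ (k - 1) ∧ (s = 1 ∨ s = -1) ∧
      ∀ t : ℕ, t.Coprime (2 ^ k) → η ^ t = (s : ℂ) * ω ^ (i * t) := by
  have : NeZero (2 ^ k) := ⟨by positivity⟩
  obtain ⟨j, hj, rfl⟩ := hω.eq_pow_of_pow_eq_one hη
  rcases k with _ | k
  · refine ⟨1, 0, by simp, Or.inl rfl, fun t _ => ?_⟩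
    have : j = 0 := by simpa using hj
    subst this
    simp
  · have hN : ω ^ (2 ^ k) = -1 :=
      IsPrimitiveRoot.eq_neg_one_of_two_right (hω.pow (by positivity) (pow_succ 2 k))
    simp only [Nat.add_sub_cancel]
    by_cases hjk : j < 2 ^ k
    · refine ⟨1, j, hjk, Or.inl rfl, fun t _ => ?_⟩
      rw [← pow_mul]; simp
    · refine ⟨-1, j - 2 ^ k, by rw [pow_succ] at hj; omega, Or.inr rfl, fun t ht => ?_⟩
      have hodd : Odd t := by
        apply Nat.Coprime.odd_of_right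
        exact Nat.Coprime.coprime_dvd_right (dvd_pow_self 2 (Nat.succ_ne_zero k)) ht
      have e : j = (j - 2 ^ k) + 2 ^ k := by omega
      conv_lhs => rw [e, pow_add, hN, mul_pow, hodd.neg_one_pow, ← pow_mul]
      push_cast
      ring

theorem sum_omega {k : ℕ} {ω : ℂ} (hω : IsPrimitiveRoot ω (2 ^ k)) {i i' : ℕ}
    (hi : i < 2 ^ (k - 1)) (hi' : i' < 2 ^ (k - 1)) :
    ∑ t ∈ (Finset.range (2 ^ k)).filter (fun t => t.Coprime (2 ^ k)),
        ω ^ (i * t) * conj (ω ^ (i' * t))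
      = if i = i' then ((2 ^ k).totient : ℂ) else 0 := by
  have h1 : ω ^ (2 ^ k) = 1 := hω.pow_eq_one
  have hk0 : (2 ^ k : ℕ) ≠ 0 := by positivity
  set η : ℂ := ω ^ i * conj (ω ^ i') with hη
  have e : ∀ t : ℕ, ω ^ (i * t) * conj (ω ^ (i' * t)) = η ^ t := by
    intro t
    rw [hη, mul_pow, ← map_pow, ← pow_mul, ← pow_mul]
  simp only [e]
  rcases k with _ | k
  · have h2 : (Finset.range (2 ^ 0)).filter (fun t => t.Coprime (2 ^ 0)) = {0} := by
      ext t; simp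
    have hi0 : i = 0 := by simpa using hi
    have hi0' : i' = 0 := by simpa using hi'
    rw [h2, Finset.sum_singleton, hi0, hi0']
    simp
  · simp only [Nat.add_sub_cancel] at hi hi'
    have hη1 : η ^ (2 ^ (k + 1)) = 1 := by
      rw [hη, mul_pow, ← map_pow, ← pow_mul, ← pow_mul, mul_comm i, mul_comm i', pow_mul, pow_mul,
        h1]
      simp
    rw [Cfsg.Agent.Lib.Helper84Ramanujan2.sum_units_pow 2 Nat.prime_two k hη1,
      Nat.totient_prime_pow_succ Nat.prime_two]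
    have hsq : η ^ 2 = 1 ↔ i = i' := by
      have e2 : η ^ 2 = ω ^ (2 * i) * conj (ω ^ (2 * i')) := by
        rw [hη, mul_pow, ← map_pow, ← pow_mul, ← pow_mul, mul_comm i, mul_comm i']
      rw [e2, Cfsg.Agent.Lib.Helper84Ramanujan.mul_conj_eq_one_iff hk0
        (by rw [← pow_mul, mul_comm, pow_mul, h1, one_pow])]
      constructor
      · intro h
        have := hω.pow_inj (by rw [pow_succ]; omega) (by rw [pow_succ]; omega) h
        omega
      · rintro rfl; rfl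
    have hone : η = 1 ↔ i = i' := by
      constructor
      · intro h
        exact hsq.1 (by rw [h, one_pow])
      · rintro rfl
        rw [hη, Cfsg.Agent.Lib.Helper84Ramanujan.mul_conj_eq_one_iff hk0
          (by rw [← pow_mul, mul_comm, pow_mul, h1, one_pow])]
    by_cases hii : i = i'
    · rw [if_pos (hone.2 hii), if_pos (hsq.2 hii), if_pos hii]
      push_cast
      ring
    · rw [if_neg (fun h => hii (hone.1 h)), if_neg (fun h => hii (hsq.1 h)), if_neg hii]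
      ring

theorem sum_mul_conj_omega {k : ℕ} {ω : ℂ} (hω : IsPrimitiveRoot ω (2 ^ k)) (c c' : ℕ → ℤ) :
    ∑ t ∈ (Finset.range (2 ^ k)).filter (fun t => t.Coprime (2 ^ k)),
        (∑ i ∈ Finset.range (2 ^ (k - 1)), (c i : ℂ) * ω ^ (i * t)) *
          conj (∑ i ∈ Finset.range (2 ^ (k - 1)), (c' i : ℂ) * ω ^ (i * t))
      = ((2 ^ k).totient : ℂ) * ((∑ i ∈ Finset.range (2 ^ (k - 1)), c i * c' i : ℤ) : ℂ) := by
  have e : ∀ t : ℕ, (∑ i ∈ Finset.range (2 ^ (k - 1)), (c i : ℂ) * ω ^ (i * t)) *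
          conj (∑ i ∈ Finset.range (2 ^ (k - 1)), (c' i : ℂ) * ω ^ (i * t))
      = ∑ i ∈ Finset.range (2 ^ (k - 1)), ∑ i' ∈ Finset.range (2 ^ (k - 1)),
        ((c i : ℂ) * (c' i' : ℂ)) * (ω ^ (i * t) * conj (ω ^ (i' * t))) := by
    intro t
    rw [map_sum, Finset.sum_mul_sum]
    apply Finset.sum_congr rfl
    intro i _
    apply Finset.sum_congr rfl
    intro i' _
    rw [map_mul, map_intCast]
    ring
  simp only [e]
  rw [Finset.sum_comm]
  push_cast
  rw [Finset.mul_sum]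
  apply Finset.sum_congr rfl
  intro i hi
  rw [Finset.sum_comm]
  have e2 : ∀ i' ∈ Finset.range (2 ^ (k - 1)),
      ∑ t ∈ (Finset.range (2 ^ k)).filter (fun t => t.Coprime (2 ^ k)),
        ((c i : ℂ) * (c' i' : ℂ)) * (ω ^ (i * t) * conj (ω ^ (i' * t)))
      = if i = i' then ((c i : ℂ) * (c' i' : ℂ)) * ((2 ^ k).totient : ℂ) else 0 := by
    intro i' hi'
    rw [← Finset.mul_sum, sum_omega hω (Finset.mem_range.1 hi) (Finset.mem_range.1 hi')]
    split_ifs <;> simp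
  rw [Finset.sum_congr rfl e2, Finset.sum_ite_eq, if_pos hi]
  push_cast
  ring

end roots

section vectors

variable {G : Type*} [Group G] [Fintype G] {M : Ideal AlgInt}
variable {H : Subgroup G} [Fintype H]

/-- signs and indices: `λ_ζ(z) = ± ω^i`. -/
structure RootData (z : H) (k : ℕ) (ω : ℂ) (sg : IrrCharacter H → ℤ)
    (idx : IrrCharacter H → ℕ) : Prop where
  prim : IsPrimitiveRoot ω (2 ^ k)
  lt : ∀ ζ, idx ζ < 2 ^ (k - 1)
  sq : ∀ ζ, sg ζ = 1 ∨ sg ζ = -1
  pow : ∀ (ζ : IrrCharacter H) (t : ℕ), t.Coprime (2 ^ k) →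
    lam (ζ : H → ℂ) z ^ t = (sg ζ : ℂ) * ω ^ (idx ζ * t)

theorem exists_rootData {z : H} (hz : ∀ h : H, h * z = z * h) {k : ℕ} (hzk : z ^ (2 ^ k) = 1) :
    ∃ ω sg idx, RootData z k ω sg idx := by
  have hω := Complex.isPrimitiveRoot_exp (2 ^ k) (by positivity)
  choose sg idx h1 h2 h3 using fun ζ : IrrCharacter H => root_decomp hω (lam_pow_eq_one ζ hz hzk)
  exact ⟨_, sg, idx, hω, h1, h2, h3⟩

/-- the coefficient vectors. -/
noncomputable def av (sg : IrrCharacter H → ℤ) (idx : IrrCharacter H → ℕ) (χ : IrrCharacter G)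
    (i : ℕ) : IrrCharacter H → ℤ :=
  fun ζ => if idx ζ = i then sg ζ * (nA χ ζ : ℤ) else 0

theorem bet_eq_sum (b : Set (IrrCharacter H)) (v m : IrrCharacter H → ℤ) :
    bet 2 b v m = ∑ ζ, v ζ * bet 2 b (Pi.single ζ 1) m := by
  conv_lhs => rw [← Finset.univ_sum_single v]
  rw [map_sum, LinearMap.sum_apply]
  apply Finset.sum_congr rfl
  intro ζ _
  have : (Pi.single ζ (v ζ) : IrrCharacter H → ℤ) = v ζ • Pi.single ζ 1 := by
    rw [← Pi.single_smul, smul_eq_mul, mul_one]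
  rw [this, map_smul, LinearMap.smul_apply, smul_eq_mul]

variable {z : H} {k : ℕ} {ω : ℂ} {sg : IrrCharacter H → ℤ} {idx : IrrCharacter H → ℕ}

theorem yy_eq_sum (R : RootData z k ω sg idx) (b : Set (IrrCharacter H)) (t : ℕ)
    (ht : t.Coprime (2 ^ k)) (χ : IrrCharacter G) (m : IrrCharacter H → ℤ) :
    yy 2 b z t χ m = ∑ i ∈ Finset.range (2 ^ (k - 1)),
      ((bet 2 b (av sg idx χ i) m : ℤ) : ℂ) * ω ^ (i * t) := by
  unfold yy
  have e : ∀ i, ((bet 2 b (av sg idx χ i) m : ℤ) : ℂ) * ω ^ (i * t)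
      = ∑ ζ, (if idx ζ = i then
        ((sg ζ * (nA χ ζ : ℤ) * bet 2 b (Pi.single ζ 1) m : ℤ) : ℂ) * ω ^ (i * t) else 0) := by
    intro i
    rw [bet_eq_sum]
    push_cast
    rw [Finset.sum_mul]
    apply Finset.sum_congr rfl
    intro ζ _
    unfold av
    split_ifs <;> simp
  simp only [e]
  rw [Finset.sum_comm]
  apply Finset.sum_congr rfl
  intro ζ _
  rw [Finset.sum_ite_eq, if_pos (Finset.mem_range.2 (R.lt ζ)), R.pow ζ t ht]
  push_cast
  ring

theorem totient_ne_zero (k : ℕ) : ((2 ^ k).totient : ℂ) ≠ 0 := by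
  have : 0 < (2 ^ k).totient := Nat.totient_pos.2 (by positivity)
  exact_mod_cast this.ne'

/-- **tight frame property**. -/
theorem sum_sq (hM : IsPModular 2 M) {b : Set (IrrCharacter H)} (hb : IsBlockUnion M b)
    (hz : ∀ h : H, h * z = z * h) (hk : orderOf (z : G) = 2 ^ k)
    (hH : H = Subgroup.centralizer ({(z : G)} : Set G)) (R : RootData z k ω sg idx)
    (m : IrrCharacter H → ℤ) :
    ∑ χ : IrrCharacter G, ∑ i ∈ Finset.range (2 ^ (k - 1)), (bet 2 b (av sg idx χ i) m) ^ 2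
      = 2 ^ blockDefect 2 b * bet 2 b m m := by
  set T := (Finset.range (2 ^ k)).filter (fun t => t.Coprime (2 ^ k)) with hT
  have hTcard : T.card = (2 ^ k).totient := by
    rw [hT, Nat.totient]
    congr 1
    apply Finset.filter_congr
    intro t _
    exact Nat.coprime_comm
  have hU : ∀ t ∈ T, ∑ χ : IrrCharacter G, yy 2 b z t χ m * conj (yy 2 b z t χ m)
      = (2 : ℂ) ^ blockDefect 2 b * ((bet 2 b m m : ℤ) : ℂ) := by
    intro t ht
    have htc : t.Coprime (orderOf (z : G)) := by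
      rw [hk]; exact (Finset.mem_filter.1 ht).2
    have h1 := sum_yy_mul_conj hM hb hz t
      ⟨k, by rw [← hk]; exact Nat.Coprime.orderOf_pow htc.symm⟩
      (hH.trans (centralizer_pow_eq htc)) m m
    exact_mod_cast h1
  have hV : ∀ χ : IrrCharacter G, ∑ t ∈ T, yy 2 b z t χ m * conj (yy 2 b z t χ m)
      = ((2 ^ k).totient : ℂ) *
        ((∑ i ∈ Finset.range (2 ^ (k - 1)), (bet 2 b (av sg idx χ i) m) ^ 2 : ℤ) : ℂ) := by
    intro χ
    have := sum_mul_conj_omega R.prim (fun i => bet 2 b (av sg idx χ i) m)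
      (fun i => bet 2 b (av sg idx χ i) m)
    simp only [← sq] at this
    rw [← this]
    apply Finset.sum_congr rfl
    intro t ht
    rw [yy_eq_sum R b t (Finset.mem_filter.1 ht).2]
  have h3 : ((2 ^ k).totient : ℂ) * ((∑ χ : IrrCharacter G,
      ∑ i ∈ Finset.range (2 ^ (k - 1)), (bet 2 b (av sg idx χ i) m) ^ 2 : ℤ) : ℂ)
      = ((2 ^ k).totient : ℂ) * ((2 ^ blockDefect 2 b * bet 2 b m m : ℤ) : ℂ) := by
    rw [Int.cast_sum, Finset.mul_sum, ← Finset.sum_congr rfl (fun χ _ => hV χ), Finset.sum_comm,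
      Finset.sum_congr rfl hU, Finset.sum_const, hTcard, nsmul_eq_mul]
    push_cast
    ring
  exact_mod_cast mul_left_cancel₀ (totient_ne_zero k) h3

theorem cc_eq (b : Set (IrrCharacter H)) (χ : IrrCharacter G) (ζ ξ : IrrCharacter H) :
    cc 2 b χ χ (ζ, ξ) = (nA χ ζ : ℤ) * (nA χ ξ : ℤ) * KK 2 b ζ ξ := by
  unfold cc KK
  by_cases h1 : ζ ∈ b
  · by_cases h2 : ξ ∈ b
    · simp [h1, h2]
    · simp [h2]
  · simp [h1]

theorem sum_bet_av (R : RootData z k ω sg idx) (b : Set (IrrCharacter H)) (χ : IrrCharacter G) :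
    ∑ i ∈ Finset.range (2 ^ (k - 1)), bet 2 b (av sg idx χ i) (av sg idx χ i)
      = ∑ ζ, ∑ ξ, if idx ζ = idx ξ then sg ζ * sg ξ * cc 2 b χ χ (ζ, ξ) else 0 := by
  simp only [bet_apply]
  rw [Finset.sum_comm]
  apply Finset.sum_congr rfl
  intro ζ _
  rw [Finset.sum_comm]
  apply Finset.sum_congr rfl
  intro ξ _
  have e : ∀ i, av sg idx χ i ζ * KK 2 b ζ ξ * av sg idx χ i ξ
      = if idx ζ = i then sg ζ * (nA χ ζ : ℤ) * KK 2 b ζ ξ * av sg idx χ i ξ else 0 := by
    intro i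
    unfold av
    split_ifs <;> simp
  simp only [e]
  rw [Finset.sum_ite_eq, if_pos (Finset.mem_range.2 (R.lt ζ)), cc_eq]
  unfold av
  by_cases h : idx ζ = idx ξ
  · rw [if_pos h, if_pos h.symm]; ring
  · rw [if_neg h, if_neg (fun h' => h h'.symm)]; ring

theorem sum_mm_av (R : RootData z k ω sg idx) (hz : ∀ h : H, h * z = z * h)
    (b : Set (IrrCharacter H)) (χ : IrrCharacter G) :
    ∑ t ∈ (Finset.range (2 ^ k)).filter (fun t => t.Coprime (2 ^ k)),
        (2 : ℂ) ^ blockDefect 2 b * mm 2 b ((z : G) ^ t) (χ : G → ℂ) (χ : G → ℂ)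
      = ((2 ^ k).totient : ℂ) * ((∑ i ∈ Finset.range (2 ^ (k - 1)),
          bet 2 b (av sg idx χ i) (av sg idx χ i) : ℤ) : ℂ) := by
  have e1 : ∀ t, (2 : ℂ) ^ blockDefect 2 b * mm 2 b ((z : G) ^ t) (χ : G → ℂ) (χ : G → ℂ)
      = ∑ i : IrrCharacter H × IrrCharacter H, (cc 2 b χ χ i : ℂ) * eta z i ^ t := by
    intro t
    have := pow_mul_mm (p := 2) b χ χ hz t
    exact_mod_cast this
  simp only [e1]
  rw [Finset.sum_comm, sum_bet_av R, Fintype.sum_prod_type]
  push_cast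
  rw [Finset.mul_sum]
  apply Finset.sum_congr rfl
  intro ζ _
  rw [Finset.mul_sum]
  apply Finset.sum_congr rfl
  intro ξ _
  have e2 : ∀ t ∈ (Finset.range (2 ^ k)).filter (fun t => t.Coprime (2 ^ k)),
      (cc 2 b χ χ (ζ, ξ) : ℂ) * eta z (ζ, ξ) ^ t
      = ((cc 2 b χ χ (ζ, ξ) : ℂ) * (sg ζ : ℂ) * (sg ξ : ℂ)) *
        (ω ^ (idx ζ * t) * conj (ω ^ (idx ξ * t))) := by
    intro t ht
    have htc := (Finset.mem_filter.1 ht).2
    unfold eta
    simp only
    rw [mul_pow, ← map_pow, R.pow ζ t htc, R.pow ξ t htc, map_mul, map_intCast]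
    ring
  rw [Finset.sum_congr rfl e2, ← Finset.mul_sum, sum_omega R.prim (R.lt ζ) (R.lt ξ)]
  split_ifs
  · push_cast; ring
  · simp

theorem sum_mm_self' {p : ℕ} [Fact p.Prime] (hM : IsPModular p M) (u : G)
    (hu : ∃ k : ℕ, orderOf u = p ^ k) (H : Subgroup G) [Fintype H]
    (hH : H = Subgroup.centralizer ({u} : Set G))
    {b : Set (IrrCharacter H)} {B : Set (IrrCharacter G)}
    [DecidablePred (· ∈ B)] (hind : IsInducedBlock M H b B) :
    ∑ χ : IrrCharacter G, (if χ ∈ B then mm p b u (χ : G → ℂ) (χ : G → ℂ) else 0)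
      = (blockRank p b : ℂ) := by
  subst hH
  exact sum_mm_self hM u hu hind

/-- **trace formula**. -/
theorem sum_self (hM : IsPModular 2 M) {b : Set (IrrCharacter H)} {B : Set (IrrCharacter G)}
    [DecidablePred (· ∈ B)] (hind : IsInducedBlock M H b B)
    (hz : ∀ h : H, h * z = z * h) (hk : orderOf (z : G) = 2 ^ k)
    (hH : H = Subgroup.centralizer ({(z : G)} : Set G)) (R : RootData z k ω sg idx) :
    ∑ χ : IrrCharacter G, (if χ ∈ B then ∑ i ∈ Finset.range (2 ^ (k - 1)),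
        bet 2 b (av sg idx χ i) (av sg idx χ i) else 0)
      = 2 ^ blockDefect 2 b * (blockRank 2 b : ℤ) := by
  set T := (Finset.range (2 ^ k)).filter (fun t => t.Coprime (2 ^ k)) with hT
  have hTcard : T.card = (2 ^ k).totient := by
    rw [hT, Nat.totient]
    congr 1
    apply Finset.filter_congr
    intro t _
    exact Nat.coprime_comm
  have hU : ∀ t ∈ T, ∑ χ : IrrCharacter G, (if χ ∈ B then
      (2 : ℂ) ^ blockDefect 2 b * mm 2 b ((z : G) ^ t) (χ : G → ℂ) (χ : G → ℂ) else 0)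
      = (2 : ℂ) ^ blockDefect 2 b * (blockRank 2 b : ℂ) := by
    intro t ht
    have htc : t.Coprime (orderOf (z : G)) := by
      rw [hk]; exact (Finset.mem_filter.1 ht).2
    rw [← sum_mm_self' hM ((z : G) ^ t)
      ⟨k, by rw [← hk]; exact Nat.Coprime.orderOf_pow htc.symm⟩ H
      (hH.trans (centralizer_pow_eq htc)) hind, Finset.mul_sum]
    apply Finset.sum_congr rfl
    intro χ _
    split_ifs <;> simp
  have h3 : ((2 ^ k).totient : ℂ) * ((∑ χ : IrrCharacter G, (if χ ∈ B then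
      ∑ i ∈ Finset.range (2 ^ (k - 1)), bet 2 b (av sg idx χ i) (av sg idx χ i) else 0) : ℤ) : ℂ)
      = ((2 ^ k).totient : ℂ) * ((2 ^ blockDefect 2 b * (blockRank 2 b : ℤ) : ℤ) : ℂ) := by
    have e : ∀ χ : IrrCharacter G, ((2 ^ k).totient : ℂ) * (((if χ ∈ B then
        ∑ i ∈ Finset.range (2 ^ (k - 1)), bet 2 b (av sg idx χ i) (av sg idx χ i) else 0) : ℤ) : ℂ)
        = ∑ t ∈ T, (if χ ∈ B then
          (2 : ℂ) ^ blockDefect 2 b * mm 2 b ((z : G) ^ t) (χ : G → ℂ) (χ : G → ℂ) else 0) := by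
      intro χ
      split_ifs
      · rw [sum_mm_av R hz]
      · simp
    rw [Int.cast_sum, Finset.mul_sum, Finset.sum_congr rfl (fun χ _ => e χ), Finset.sum_comm,
      Finset.sum_congr rfl hU, Finset.sum_const, hTcard, nsmul_eq_mul]
    push_cast
    ring
  exact_mod_cast mul_left_cancel₀ (totient_ne_zero k) h3

end vectors

end Cfsg.Agent.Lib.Helper82Coef
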