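import Mathlib
import Cfsg.Agent.Lib.Helper82Lattice

set_option autoImplicit false

/-!
A descent argument for positive semidefinite integral forms which have rank one modulo `2`:
given a "tight frame" `a k i` of trace at most `3 · 2^d` with prescribed `2`-adic heights,
`3 k₀ + 2 ∑_{h ≥ 1} 2^h k_h ≤ 3 · 2^d`.
-/

namespace Cfsg.Agent.Lib.Helper82Descent

open Cfsg.Agent.Lib.Helper82Lattice

variable {V : Type*} [AddCommGroup V]

structure Sys {K I : Type*} [Fintype K] [Fintype I] (β : V →ₗ[ℤ] V →ₗ[ℤ] ℤ)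
    (a : K → I → V) (h : K → ℕ) (d : ℕ) : Prop where
  psd : PSD β
  h1 : ∀ m, ∑ k, ∑ i, (β (a k i) m) ^ 2 ≤ 2 ^ d * β m m
  h2 : ∀ k i m, (2 : ℤ) ^ (h k) ∣ β (a k i) m
  h3 : ∀ k x, Odd (β x x) → ¬ (2 : ℤ) ^ (h k + 1) ∣ ∑ i, β (a k i) x
  h4 : ∀ u v, Even (β u v - β u u * β v v)
  h5 : ∃ x, Odd (β x x)
  h6 : ∑ k, ∑ i, β (a k i) (a k i) ≤ 3 * 2 ^ d

theorem exists_div (f : V →ₗ[ℤ] ℤ) (n : ℤ) (hdiv : ∀ u, n ∣ f u) :
    ∃ c : V →ₗ[ℤ] ℤ, ∀ u, n * c u = f u := by
  refine ⟨{ toFun := fun u => f u / n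
            map_add' := fun u v => by rw [map_add, Int.add_ediv_of_dvd_left (hdiv u)]
            map_smul' := fun c u => by
              simp only [map_smul, smul_eq_mul, RingHom.id_apply]
              exact Int.mul_ediv_assoc _ (hdiv u) }, fun u => ?_⟩
  exact Int.mul_ediv_cancel' (hdiv u)

section

variable {K I : Type*} [Fintype K] [Fintype I] {β : V →ₗ[ℤ] V →ₗ[ℤ] ℤ}
  {a : K → I → V} {h : K → ℕ} {d : ℕ}

theorem Sys.exists_ne (S : Sys β a h d) (k : K) {x : V} (hx : Odd (β x x)) :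
    ∃ i, β (a k i) x ≠ 0 := by
  by_contra hcon
  push Not at hcon
  apply S.h3 k x hx
  rw [Finset.sum_eq_zero (fun i _ => hcon i)]
  exact dvd_zero _

theorem Sys.sq_le (S : Sys β a h d) (k : K) {x : V} (hx : Odd (β x x)) :
    (4 : ℤ) ^ (h k) ≤ ∑ i, (β (a k i) x) ^ 2 := by
  obtain ⟨i, hi⟩ := S.exists_ne k hx
  obtain ⟨c, hc⟩ := S.h2 k i x
  have hc0 : c ≠ 0 := by
    rintro rfl
    apply hi
    rw [hc, mul_zero]
  have h1 : (4 : ℤ) ^ (h k) ≤ (β (a k i) x) ^ 2 := by
    have e : ((2 : ℤ) ^ h k * c) ^ 2 = 4 ^ (h k) * c ^ 2 := by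
      rw [mul_pow, ← pow_mul, mul_comm (h k) 2, pow_mul]
      norm_num
    rw [hc, e]
    have : (1 : ℤ) ≤ c ^ 2 := by
      have := sq_nonneg c
      have h3 : c ^ 2 ≠ 0 := pow_ne_zero _ hc0
      omega
    have h4 : (0 : ℤ) < 4 ^ (h k) := by positivity
    nlinarith
  exact h1.trans (Finset.single_le_sum (f := fun i => (β (a k i) x) ^ 2)
    (fun j _ => sq_nonneg _) (Finset.mem_univ i))

theorem Sys.exists_pos (S : Sys β a h d) (k : K) :
    ∃ i, (2 : ℤ) ^ (h k) ≤ β (a k i) (a k i) := by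
  obtain ⟨x, hx⟩ := S.h5
  obtain ⟨i, hi⟩ := S.exists_ne k hx
  refine ⟨i, ?_⟩
  have h0 : β (a k i) (a k i) ≠ 0 := fun h0 => hi (S.psd.rad h0 x)
  have h1 := S.psd.nonneg (a k i)
  exact Int.le_of_dvd (lt_of_le_of_ne h1 (Ne.symm h0)) (S.h2 k i _)

theorem Sys.odd_of_height_zero (S : Sys β a h d) (k : K) (hk : h k = 0) :
    Odd (∑ i, β (a k i) (a k i)) := by
  obtain ⟨x, hx⟩ := S.h5
  have h3 := S.h3 k x hx
  rw [hk, zero_add, pow_one, ← even_iff_two_dvd, Int.not_even_iff_odd] at h3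
  have h4 : Even (∑ i, β (a k i) x - ∑ i, β (a k i) (a k i)) := by
    rw [← Finset.sum_sub_distrib]
    apply Finset.even_sum
    intro i _
    have := S.h4 (a k i) x
    obtain ⟨r, hr⟩ := hx
    rw [hr] at this
    have e : β (a k i) x - β (a k i) (a k i)
        = (β (a k i) x - β (a k i) (a k i) * (2 * r + 1)) + 2 * (β (a k i) (a k i) * r) := by ring
    rw [e]
    exact this.add (even_two_mul _)
  have e : ∑ i, β (a k i) (a k i)
      = ∑ i, β (a k i) x - (∑ i, β (a k i) x - ∑ i, β (a k i) (a k i)) := by ring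
  rw [e]
  exact h3.sub_even h4

/-- splitting off a vector `x₀` with `β x₀ x₀ = 2^e` dividing all `β · x₀`. -/
theorem Sys.split (S : Sys β a h d) (k₀ : K) (i₀ : I) (hk : 1 ≤ h k₀)
    (hx : β (a k₀ i₀) (a k₀ i₀) = 2 ^ (h k₀)) :
    ∃ β' : V →ₗ[ℤ] V →ₗ[ℤ] ℤ, Sys β' a h d ∧
      ∑ k, ∑ i, β' (a k i) (a k i) < ∑ k, ∑ i, β (a k i) (a k i) := by
  set x₀ := a k₀ i₀ with hx₀
  set q : ℤ := 2 ^ (h k₀) with hq
  have hq0 : q ≠ 0 := by positivity
  obtain ⟨c, hc⟩ := exists_div (β x₀) q (fun u => S.h2 k₀ i₀ u)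
  set P : V →ₗ[ℤ] V := LinearMap.id - c.smulRight x₀ with hP
  have hPa : ∀ u, P u = u - c u • x₀ := by
    intro u
    rw [hP]
    simp
  have e0 : ∀ u, β (P u) x₀ = 0 := by
    intro u
    rw [hPa, map_sub, map_smul, LinearMap.sub_apply, LinearMap.smul_apply, smul_eq_mul, hx,
      S.psd.symm u x₀, ← hc u]
    ring
  have e1 : ∀ u v, β (P u) (P v) = β (P u) v := by
    intro u v
    rw [hPa v, map_sub, map_smul, e0, smul_zero, sub_zero]
  have e2 : ∀ u v, β (P u) (P v) = β u (P v) := by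
    intro u v
    rw [S.psd.symm, e1, S.psd.symm]
  have e3 : ∀ u, β (P u) (P u) = β u u - q * c u ^ 2 := by
    intro u
    rw [e1, hPa, map_sub, map_smul, LinearMap.sub_apply, LinearMap.smul_apply, smul_eq_mul,
      ← hc u]
    ring
  refine ⟨β.compl₁₂ P P, ⟨⟨?_, ?_⟩, ?_, ?_, ?_, ?_, ?_, ?_⟩, ?_⟩
  · intro m n
    simp only [LinearMap.compl₁₂_apply]
    exact S.psd.symm _ _
  · intro m
    simp only [LinearMap.compl₁₂_apply]
    exact S.psd.nonneg _
  · intro m
    simp only [LinearMap.compl₁₂_apply]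
    refine le_trans (le_of_eq ?_) (S.h1 (P m))
    exact Finset.sum_congr rfl (fun k _ => Finset.sum_congr rfl (fun i _ => by rw [e2]))
  · intro k i m
    simp only [LinearMap.compl₁₂_apply, e2]
    exact S.h2 k i (P m)
  · intro k x hxo
    simp only [LinearMap.compl₁₂_apply] at hxo ⊢
    simp only [e2]
    exact S.h3 k (P x) hxo
  · intro u v
    simp only [LinearMap.compl₁₂_apply]
    exact S.h4 _ _
  · obtain ⟨x, hxo⟩ := S.h5
    refine ⟨x, ?_⟩
    simp only [LinearMap.compl₁₂_apply]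
    rw [e3]
    apply hxo.sub_even
    apply Even.mul_right
    rw [hq]
    exact even_two.pow_of_ne_zero (by omega)
  · refine le_trans ?_ S.h6
    apply Finset.sum_le_sum
    intro k _
    apply Finset.sum_le_sum
    intro i _
    simp only [LinearMap.compl₁₂_apply]
    rw [e3]
    have : 0 ≤ q * c (a k i) ^ 2 := by positivity
    linarith
  · apply Finset.sum_lt_sum
    · intro k _
      apply Finset.sum_le_sum
      intro i _
      simp only [LinearMap.compl₁₂_apply]
      rw [e3]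
      have : 0 ≤ q * c (a k i) ^ 2 := by positivity
      linarith
    · refine ⟨k₀, Finset.mem_univ _, ?_⟩
      apply Finset.sum_lt_sum
      · intro i _
        simp only [LinearMap.compl₁₂_apply]
        rw [e3]
        have : 0 ≤ q * c (a k₀ i) ^ 2 := by positivity
        linarith
      · refine ⟨i₀, Finset.mem_univ _, ?_⟩
        simp only [LinearMap.compl₁₂_apply]
        rw [e1, e0, hx]
        positivity

theorem bound_aux (n : ℕ) : ∀ (β : V →ₗ[ℤ] V →ₗ[ℤ] ℤ), Sys β a h d →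
    (∑ k, ∑ i, β (a k i) (a k i)).toNat ≤ n →
    ∑ k, (if h k = 0 then (3 : ℤ) else 2 ^ (h k + 1)) ≤ 3 * 2 ^ d := by
  induction n with
  | zero =>
    intro β S hn
    have hnn : ∀ k, 0 ≤ ∑ i, β (a k i) (a k i) :=
      fun k => Finset.sum_nonneg (fun i _ => S.psd.nonneg _)
    have h0 : ∑ k, ∑ i, β (a k i) (a k i) ≤ 0 := by
      have := Int.toNat_of_nonneg (Finset.sum_nonneg (s := Finset.univ) (fun k _ => hnn k))
      omega
    rcases isEmpty_or_nonempty K with hK | ⟨⟨k⟩⟩
    · simp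
    · exfalso
      obtain ⟨i, hi⟩ := S.exists_pos k
      have h1 : β (a k i) (a k i) ≤ ∑ i, β (a k i) (a k i) :=
        Finset.single_le_sum (f := fun i => β (a k i) (a k i)) (fun j _ => S.psd.nonneg _)
          (Finset.mem_univ i)
      have h2 : ∑ i, β (a k i) (a k i) ≤ ∑ k, ∑ i, β (a k i) (a k i) :=
        Finset.single_le_sum (f := fun k => ∑ i, β (a k i) (a k i)) (fun j _ => hnn j)
          (Finset.mem_univ k)
      have h3 : (0 : ℤ) < 2 ^ (h k) := by positivity
      linarith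
  | succ n ih =>
    intro β S hn
    have hnn : ∀ k, 0 ≤ ∑ i, β (a k i) (a k i) :=
      fun k => Finset.sum_nonneg (fun i _ => S.psd.nonneg _)
    by_cases hall : ∀ k, (if h k = 0 then (3 : ℤ) else 2 ^ (h k + 1)) ≤ ∑ i, β (a k i) (a k i)
    · exact (Finset.sum_le_sum (fun k _ => hall k)).trans S.h6
    · push Not at hall
      obtain ⟨k, hk⟩ := hall
      obtain ⟨i, hi⟩ := S.exists_pos k
      have h1 : β (a k i) (a k i) ≤ ∑ i, β (a k i) (a k i) :=
        Finset.single_le_sum (f := fun i => β (a k i) (a k i)) (fun j _ => S.psd.nonneg _)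
          (Finset.mem_univ i)
      by_cases hk0 : h k = 0
      · rw [if_pos hk0] at hk
        rw [hk0, pow_zero] at hi
        have hodd := S.odd_of_height_zero k hk0
        have h2 : ∑ i, β (a k i) (a k i) = 1 := by
          obtain ⟨r, hr⟩ := hodd
          omega
        have h3 : β (a k i) (a k i) = 1 := by omega
        have hxo : Odd (β (a k i) (a k i)) := by rw [h3]; exact odd_one
        have h4 := S.h1 (a k i)
        rw [h3, mul_one] at h4
        have h5 : ∑ k', (4 : ℤ) ^ (h k') ≤ 2 ^ d :=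
          (Finset.sum_le_sum (fun k' _ => S.sq_le k' hxo)).trans h4
        calc ∑ k, (if h k = 0 then (3 : ℤ) else 2 ^ (h k + 1))
            ≤ ∑ k', 3 * (4 : ℤ) ^ (h k') := by
              apply Finset.sum_le_sum
              intro k' _
              split_ifs with h0
              · rw [h0]; norm_num
              · have e : (4 : ℤ) ^ (h k') = 2 ^ (h k') * 2 ^ (h k') := by
                  rw [← mul_pow]; norm_num
                rw [e, pow_succ]
                have : (1 : ℤ) ≤ 2 ^ (h k') := one_le_pow₀ (by norm_num)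
                nlinarith
          _ = 3 * ∑ k', (4 : ℤ) ^ (h k') := by rw [Finset.mul_sum]
          _ ≤ 3 * 2 ^ d := by linarith
      · rw [if_neg hk0] at hk
        have h3 : β (a k i) (a k i) = 2 ^ (h k) := by
          obtain ⟨c, hc⟩ := S.h2 k i (a k i)
          have hlt : β (a k i) (a k i) < 2 ^ (h k + 1) := lt_of_le_of_lt h1 hk
          rw [hc, pow_succ] at hlt
          rw [hc] at hi
          have hpos : (0 : ℤ) < 2 ^ (h k) := by positivity
          have hc1 : c < 2 := by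
            by_contra hcc
            push Not at hcc
            nlinarith
          have hc2 : 1 ≤ c := by
            by_contra hcc
            push Not at hcc
            have : c ≤ 0 := by omega
            nlinarith
          have : c = 1 := by omega
          rw [hc, this, mul_one]
        obtain ⟨β', S', hlt⟩ := S.split k i (by omega) h3
        apply ih β' S'
        have hnn' : 0 ≤ ∑ k, ∑ i, β' (a k i) (a k i) :=
          Finset.sum_nonneg (fun k _ => Finset.sum_nonneg (fun i _ => S'.psd.nonneg _))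
        have := Int.toNat_of_nonneg hnn'
        have := Int.toNat_of_nonneg (Finset.sum_nonneg (s := Finset.univ) (fun k _ => hnn k))
        omega

theorem Sys.bound (S : Sys β a h d) :
    ∑ k, (if h k = 0 then (3 : ℤ) else 2 ^ (h k + 1)) ≤ 3 * 2 ^ d :=
  bound_aux _ β S le_rfl

end

end Cfsg.Agent.Lib.Helper82Descent
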