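import Mathlib
import Cfsg.Prelude.Def_Blocks
import Cfsg.Prelude.Def_BlockRank
import Cfsg.Agent.Lib.Helper82Coef
import Cfsg.Agent.Lib.Helper82Descent

set_option autoImplicit false
set_option linter.unusedSectionVars false

/-!
`p = 2`, major subsections: `2`-adic properties of the coefficient vectors `av χ i`
(divisibility by `2^{h(χ)}`, exact valuation against odd vectors, rank one modulo `2`).
-/

namespace Cfsg.Agent.Lib.Helper82Coef2

open Cfsg
open Cfsg.Agent.Lib.Helper81Local Cfsg.Agent.Lib.Helper81Base Cfsg.Agent.Lib.Helper81BB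
  Cfsg.Agent.Lib.Helper81Block Cfsg.Agent.Lib.Helper81Orth Cfsg.Agent.Lib.Helper81Orth2
  Cfsg.Agent.Lib.Helper81Part Cfsg.Agent.Lib.Helper81Defect Cfsg.Agent.Lib.Helper81Reg
  Cfsg.Agent.Lib.Helper81Subsec Cfsg.Agent.Lib.Helper81Rank
  Cfsg.Agent.Lib.Helper84Subsec Cfsg.Agent.Lib.Helper84Subsec2 Cfsg.Agent.Lib.Helper84Contrib
  Cfsg.Agent.Lib.Helper82Lattice Cfsg.Agent.Lib.Helper82Major Cfsg.Agent.Lib.Helper82Coef
open scoped ComplexConjugate

variable {G : Type*} [Group G] [Fintype G] {M : Ideal AlgInt}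
variable {H : Subgroup G} [Fintype H]

/-- the scalar `2^d χ(1) / (|G| 2^h)`. -/
noncomputable def sc (B : Set (IrrCharacter G)) (χ : IrrCharacter G) : ℂ :=
  ((2 ^ blockDefect 2 B * charDegree (χ : G → ℂ) : ℕ) : ℂ) /
    ((Nat.card G * 2 ^ blockHeight 2 B (χ : G → ℂ) : ℕ) : ℂ)

theorem sc_val {B : Set (IrrCharacter G)} {χ : IrrCharacter G} (hχ : χ ∈ B) :
    (2 ^ blockDefect 2 B * charDegree (χ : G → ℂ)).factorization 2
      = (Nat.card G * 2 ^ blockHeight 2 B (χ : G → ℂ)).factorization 2 := by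
  rw [Nat.factorization_mul (pow_ne_zero _ two_ne_zero) (charDegree_pos χ).ne',
    Nat.factorization_mul Nat.card_pos.ne' (pow_ne_zero _ two_ne_zero),
    Nat.prime_two.factorization_pow, Nat.prime_two.factorization_pow]
  simp only [Finsupp.coe_add, Pi.add_apply, Finsupp.single_eq_same]
  rw [blockDefect_def, blockHeight_def]
  have := minVal_le (p := 2) hχ
  have := minVal_le_card (p := 2) ⟨χ, hχ⟩
  omega

theorem sc_mem (hM : IsPModular 2 M) {B : Set (IrrCharacter G)} {χ : IrrCharacter G}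
    (hχ : χ ∈ B) : MemLocalRing M (sc B χ) :=
  Cfsg.Agent.Lib.Helper20Height.natCast_div_memRing hM
    (Nat.mul_ne_zero (pow_ne_zero _ two_ne_zero) (charDegree_pos χ).ne')
    (Nat.mul_ne_zero Nat.card_pos.ne' (pow_ne_zero _ two_ne_zero)) (sc_val hχ).ge

theorem sc_unit (hM : IsPModular 2 M) {B : Set (IrrCharacter G)} {χ : IrrCharacter G}
    (hχ : χ ∈ B) : ¬ MemLocalIdeal M (sc B χ) := by
  have hMp := hM.2.1.isPrime
  intro h
  have h1 : MemLocalRing M (((Nat.card G * 2 ^ blockHeight 2 B (χ : G → ℂ) : ℕ) : ℂ) /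
      ((2 ^ blockDefect 2 B * charDegree (χ : G → ℂ) : ℕ) : ℂ)) :=
    Cfsg.Agent.Lib.Helper20Height.natCast_div_memRing hM
      (Nat.mul_ne_zero Nat.card_pos.ne' (pow_ne_zero _ two_ne_zero))
      (Nat.mul_ne_zero (pow_ne_zero _ two_ne_zero) (charDegree_pos χ).ne') (sc_val hχ).le
  apply not_memLocalIdeal_one (M := M)
  have h2 := memLocalIdeal_mul h1 h
  have hA : ((2 ^ blockDefect 2 B * charDegree (χ : G → ℂ) : ℕ) : ℂ) ≠ 0 := by
    exact_mod_cast Nat.mul_ne_zero (pow_ne_zero _ two_ne_zero) (charDegree_pos χ).ne'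
  have hN : ((Nat.card G * 2 ^ blockHeight 2 B (χ : G → ℂ) : ℕ) : ℂ) ≠ 0 := by
    exact_mod_cast Nat.mul_ne_zero Nat.card_pos.ne' (pow_ne_zero _ two_ne_zero)
  have e : ((Nat.card G * 2 ^ blockHeight 2 B (χ : G → ℂ) : ℕ) : ℂ) /
      ((2 ^ blockDefect 2 B * charDegree (χ : G → ℂ) : ℕ) : ℂ) * sc B χ = 1 := by
    unfold sc
    field_simp
  rwa [e] at h2

theorem yy_div_eq (hM : IsPModular 2 M) {b : Set (IrrCharacter H)} (hb : IsBlockUnion M b)
    {B : Set (IrrCharacter G)} (hd : blockDefect 2 b = blockDefect 2 B)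
    {z : H} (hz : ∀ h : H, h * z = z * h) (χ : IrrCharacter G) (m : IrrCharacter H → ℤ) :
    yy 2 b z 1 χ m / 2 ^ blockHeight 2 B (χ : G → ℂ)
      = sc B χ * om (indFun H (aa 2 b z m)) χ := by
  have hG : (Nat.card G : ℂ) ≠ 0 := Cfsg.Agent.Lib.Helper81Base.card_ne_zero
  have h2 : (2 : ℂ) ^ blockHeight 2 B (χ : G → ℂ) ≠ 0 := pow_ne_zero _ two_ne_zero
  rw [yy_eq_om hM hb hz, hd]
  unfold sc
  push_cast
  rw [charDegree_eq]
  field_simp

theorem om_aa_mem (hM : IsPModular 2 M) (b : Set (IrrCharacter H))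
    {z : H} (hz : ∀ h : H, h * z = z * h) (χ : IrrCharacter G) (m : IrrCharacter H → ℤ) :
    MemLocalRing M (om (indFun H (aa 2 b z m)) χ) := by
  have hMp := hM.2.1.isPrime
  exact om_memLocalRing (Cfsg.Agent.Lib.Helper19Ind.indFun_isClassFunction H (aa 2 b z m))
    (Cfsg.Agent.Lib.Helper21FR.indFun_local (M := M) (aa_classfn (p := 2) b hz m)
      (aa_local b z m)) χ

theorem yy_div_mem (hM : IsPModular 2 M) {b : Set (IrrCharacter H)} (hb : IsBlockUnion M b)
    {B : Set (IrrCharacter G)} (hd : blockDefect 2 b = blockDefect 2 B)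
    {z : H} (hz : ∀ h : H, h * z = z * h) {χ : IrrCharacter G} (hχ : χ ∈ B)
    (m : IrrCharacter H → ℤ) :
    MemLocalRing M (yy 2 b z 1 χ m / 2 ^ blockHeight 2 B (χ : G → ℂ)) := by
  have hMp := hM.2.1.isPrime
  rw [yy_div_eq hM hb hd hz]
  exact memLocalRing_mul (sc_mem hM hχ) (om_aa_mem hM b hz χ m)

variable {z : H} {k : ℕ} {ω : ℂ} {sg : IrrCharacter H → ℤ} {idx : IrrCharacter H → ℕ}

/-- **(H2)** -/
theorem pow_dvd_bet_av (hM : IsPModular 2 M) {b : Set (IrrCharacter H)} (hb : IsBlockUnion M b)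
    {B : Set (IrrCharacter G)} (hd : blockDefect 2 b = blockDefect 2 B)
    (hz : ∀ h : H, h * z = z * h) (R : RootData z k ω sg idx) {χ : IrrCharacter G} (hχ : χ ∈ B)
    (m : IrrCharacter H → ℤ) {i : ℕ} (hi : i < 2 ^ (k - 1)) :
    (2 : ℤ) ^ blockHeight 2 B (χ : G → ℂ) ∣ bet 2 b (av sg idx χ i) m := by
  have h1 := yy_div_mem hM hb hd hz hχ m
  rw [yy_eq_sum R b 1 (Nat.coprime_one_left _)] at h1
  simp only [mul_one] at h1
  rcases k with _ | k
  · simp only [Nat.zero_sub, pow_zero, Finset.range_one, Finset.sum_singleton, mul_one] at h1 hi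
    have hi0 : i = 0 := by omega
    subst hi0
    exact Cfsg.Agent.Lib.Helper82CycTwo.pow_dvd_int hM _ _ h1
  · simp only [Nat.add_sub_cancel] at h1 hi
    have hN : ω ^ (2 ^ k) = -1 :=
      IsPrimitiveRoot.eq_neg_one_of_two_right (R.prim.pow (by positivity) (pow_succ 2 k))
    exact Cfsg.Agent.Lib.Helper82CycTwo.pow_dvd_coeff hM hN _
      (fun i => bet 2 b (av sg idx χ i) m) h1 i hi

/-- **(H4)** the form has rank one modulo `2`. -/
theorem even_bet (hM : IsPModular 2 M) {b : Set (IrrCharacter H)} (hb : IsPBlock M b)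
    (u v : IrrCharacter H → ℤ) : Even (bet 2 b u v - bet 2 b u u * bet 2 b v v) := by
  classical
  have hMp := hM.2.1.isPrime
  obtain ⟨ζ0, hζ0, -⟩ := exists_height_zero (p := 2) (isPBlock_nonempty hb)
  set δ : IrrCharacter H → ℂ := fun ζ =>
    (2 : ℂ) ^ blockDefect 2 b * (ζ : H → ℂ) 1 / (Nat.card H : ℂ) with hδ
  set γ : IrrCharacter H → ℂ := fun ξ => creg 2 (ζ0 : H → ℂ) (ξ : H → ℂ) with hγ
  have hδm : ∀ ζ ∈ b, MemLocalRing M (δ ζ) := by
    intro ζ hζ
    have := Cfsg.Agent.Lib.Helper20Height.natCast_div_memRing hM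
      (A := 2 ^ blockDefect 2 b * charDegree (ζ : H → ℂ)) (N := Nat.card H)
      (Nat.mul_ne_zero (pow_ne_zero _ two_ne_zero) (charDegree_pos ζ).ne') Nat.card_pos.ne' (by
        rw [Nat.factorization_mul (pow_ne_zero _ two_ne_zero) (charDegree_pos ζ).ne',
          Nat.prime_two.factorization_pow]
        simp only [Finsupp.coe_add, Pi.add_apply, Finsupp.single_eq_same]
        rw [blockDefect_def]
        have := minVal_le (p := 2) hζ
        have := minVal_le_card (p := 2) ⟨ζ, hζ⟩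
        omega)
    rw [Nat.cast_mul, Nat.cast_pow, charDegree_eq] at this
    rw [hδ]
    simpa using this
  have hγm : ∀ ξ, MemLocalRing M (γ ξ) := fun ξ => creg_mem ζ0 ξ
  set D : (IrrCharacter H → ℤ) → ℂ := fun u => ∑ ζ, if ζ ∈ b then (u ζ : ℂ) * δ ζ else 0 with hD
  set Γ : (IrrCharacter H → ℤ) → ℂ := fun v => ∑ ξ, if ξ ∈ b then (v ξ : ℂ) * γ ξ else 0 with hΓ
  have hDm : ∀ u, MemLocalRing M (D u) := by
    intro u
    apply memLocalRing_sum
    intro ζ _
    split_ifs with h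
    · exact memLocalRing_mul (memLocalRing_intCast _) (hδm ζ h)
    · exact MemLocalIdeal.memLocalRing memLocalIdeal_zero
  have hΓm : ∀ u, MemLocalRing M (Γ u) := by
    intro u
    apply memLocalRing_sum
    intro ζ _
    split_ifs with h
    · exact memLocalRing_mul (memLocalRing_intCast _) (hγm ζ)
    · exact MemLocalIdeal.memLocalRing memLocalIdeal_zero
  have key : ∀ u v, MemLocalIdeal M (((bet 2 b u v : ℤ) : ℂ) - D u * Γ v) := by
    intro u v
    rw [bet_apply, hD, hΓ]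
    simp only
    rw [Finset.sum_mul_sum]
    push_cast
    rw [← Finset.sum_sub_distrib]
    apply memLocalIdeal_sum
    intro ζ _
    rw [← Finset.sum_sub_distrib]
    apply memLocalIdeal_sum
    intro ξ _
    unfold KK
    by_cases h1 : ζ ∈ b
    · by_cases h2 : ξ ∈ b
      · simp only [h1, h2, and_self, if_true]
        have e := kR_spec (p := 2) h1 ξ
        rw [regInner_eq_creg] at e
        have e' : ((kR 2 b ζ ξ : ℤ) : ℂ) = δ ζ * creg 2 (ζ : H → ℂ) (ξ : H → ℂ) := by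
          rw [← e, hδ]
          push_cast
          ring
        rw [e']
        have e2 : (u ζ : ℂ) * (δ ζ * creg 2 (ζ : H → ℂ) (ξ : H → ℂ)) * (v ξ : ℂ)
            - (u ζ : ℂ) * δ ζ * ((v ξ : ℂ) * γ ξ)
            = ((u ζ : ℂ) * δ ζ * (v ξ : ℂ)) *
              (creg 2 (ζ : H → ℂ) (ξ : H → ℂ) - creg 2 (ζ0 : H → ℂ) (ξ : H → ℂ)) := by
          rw [hγ]; ring
        rw [e2]
        apply memLocalIdeal_mul
        · exact memLocalRing_mul (memLocalRing_mul (memLocalRing_intCast _) (hδm ζ h1))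
            (memLocalRing_intCast _)
        · exact creg_congr ξ (isPBlock_sameBlock hb h1 hζ0)
      · simp only [h2, and_false, if_false]
        simpa using memLocalIdeal_zero
    · simp only [h1, false_and, if_false]
      simpa using memLocalIdeal_zero
  have prod : ∀ {a a' c c' : ℂ}, MemLocalIdeal M (a - a') → MemLocalIdeal M (c - c') →
      MemLocalRing M c → MemLocalRing M a' → MemLocalIdeal M (a * c - a' * c') := by
    intro a a' c c' h1 h2 h3 h4
    have : a * c - a' * c' = (a - a') * c + a' * (c - c') := by ring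
    rw [this]
    exact memLocalIdeal_add (memLocalIdeal_mul_right h1 h3) (memLocalIdeal_mul h4 h2)
  have k1 := prod (key u v) (key v u) (memLocalRing_intCast _)
    (memLocalRing_mul (hDm u) (hΓm v))
  have k2 := prod (key u u) (key v v) (memLocalRing_intCast _)
    (memLocalRing_mul (hDm u) (hΓm u))
  have k3 := memLocalIdeal_sub k1 k2
  have e3 : ((bet 2 b u v : ℤ) : ℂ) * ((bet 2 b v u : ℤ) : ℂ) - D u * Γ v * (D v * Γ u)
      - (((bet 2 b u u : ℤ) : ℂ) * ((bet 2 b v v : ℤ) : ℂ) - D u * Γ u * (D v * Γ v))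
      = ((bet 2 b u v * bet 2 b u v - bet 2 b u u * bet 2 b v v : ℤ) : ℂ) := by
    rw [(bet_psd (p := 2) b).symm v u]
    push_cast
    ring
  rw [e3, memLocalIdeal_intCast_iff hM] at k3
  have k4 : Even (bet 2 b u v * bet 2 b u v - bet 2 b u u * bet 2 b v v) :=
    even_iff_two_dvd.2 (by exact_mod_cast k3)
  have k5 : Even (bet 2 b u v * (bet 2 b u v - 1)) := Int.even_mul_pred_self _
  have e4 : bet 2 b u v - bet 2 b u u * bet 2 b v v
      = (bet 2 b u v * bet 2 b u v - bet 2 b u u * bet 2 b v v)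
        - bet 2 b u v * (bet 2 b u v - 1) := by ring
  rw [e4]
  exact k4.sub k5

/-- the restriction multiplicities as a vector. -/
noncomputable def nv (χ : IrrCharacter G) : IrrCharacter H → ℤ := fun ζ => (nA χ ζ : ℤ)

/-- **(H5)** -/
theorem odd_bet_nv (hM : IsPModular 2 M) {b : Set (IrrCharacter H)} {B : Set (IrrCharacter G)}
    (hind : IsInducedBlock M H b B) {ψ : IrrCharacter G} (hψ : ψ ∈ B)
    (h0 : blockHeight 2 B (ψ : G → ℂ) = 0) : Odd (bet 2 b (nv ψ) (nv ψ)) := by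
  have h1 := not_dvd_sum_cc hM hind hψ h0 hψ h0
  have e : ∑ i : IrrCharacter H × IrrCharacter H, cc 2 b ψ ψ i = bet 2 b (nv ψ) (nv ψ) := by
    rw [Fintype.sum_prod_type, bet_apply]
    apply Finset.sum_congr rfl
    intro ζ _
    apply Finset.sum_congr rfl
    intro ξ _
    rw [cc_eq]
    unfold nv
    ring
  rw [e] at h1
  rw [← Int.not_even_iff_odd, even_iff_two_dvd]
  exact_mod_cast h1

theorem yy_div_unit (hM : IsPModular 2 M) {b : Set (IrrCharacter H)} {B : Set (IrrCharacter G)}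
    (hind : IsInducedBlock M H b B) (hd : blockDefect 2 b = blockDefect 2 B)
    (hz : ∀ h : H, h * z = z * h) (hzk : z ^ (2 ^ k) = 1) {x : IrrCharacter H → ℤ}
    (hx : Odd (bet 2 b x x)) {χ : IrrCharacter G} (hχ : χ ∈ B) :
    ¬ MemLocalIdeal M (yy 2 b z 1 χ x / 2 ^ blockHeight 2 B (χ : G → ℂ)) := by
  have hMp := hM.2.1.isPrime
  have hb := isBlockUnion_of_isPBlock hind.1
  obtain ⟨ψ, hψ, h0⟩ := exists_height_zero (p := 2) (isPBlock_nonempty hind.2.1)
  have s1 : MemLocalIdeal M (yy 2 b z 1 ψ x - ((bet 2 b (nv ψ) x : ℤ) : ℂ)) := by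
    rw [bet_eq_sum]
    unfold yy
    push_cast
    rw [← Finset.sum_sub_distrib]
    apply memLocalIdeal_sum
    intro ζ _
    rw [pow_one]
    have : ((nA ψ ζ : ℕ) : ℂ) * ((bet 2 b (Pi.single ζ 1) x : ℤ) : ℂ) * lam (ζ : H → ℂ) z
        - ((nv ψ ζ : ℤ) : ℂ) * ((bet 2 b (Pi.single ζ 1) x : ℤ) : ℂ)
        = (((nA ψ ζ : ℕ) : ℂ) * ((bet 2 b (Pi.single ζ 1) x : ℤ) : ℂ)) *
          (lam (ζ : H → ℂ) z - 1) := by
      unfold nv
      push_cast
      ring
    rw [this]
    exact memLocalIdeal_mul (memLocalRing_mul (memLocalRing_natCast _) (memLocalRing_intCast _))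
      (lam_sub_one hM ζ hz hzk).2
  have s2 : Odd (bet 2 b (nv ψ) x) := by
    have h1 := even_bet hM hind.1 (nv ψ) x
    have h2 := (odd_bet_nv hM hind hψ h0).mul hx
    have e : bet 2 b (nv ψ) x = (bet 2 b (nv ψ) x - bet 2 b (nv ψ) (nv ψ) * bet 2 b x x)
        + bet 2 b (nv ψ) (nv ψ) * bet 2 b x x := by ring
    rw [e]
    exact h1.add_odd h2
  have s3 : ¬ MemLocalIdeal M (yy 2 b z 1 ψ x) := by
    intro h
    have h1 := memLocalIdeal_sub h s1
    rw [sub_sub_cancel, memLocalIdeal_intCast_iff hM] at h1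
    rw [← Int.not_even_iff_odd, even_iff_two_dvd] at s2
    exact s2 (by exact_mod_cast h1)
  have s4 : ¬ MemLocalIdeal M (om (indFun H (aa 2 b z x)) ψ) := by
    intro h
    apply s3
    have := yy_div_eq hM hb hd hz ψ x
    rw [h0, pow_zero, div_one] at this
    rw [this]
    exact memLocalIdeal_mul (sc_mem hM hψ) h
  have s5 := om_congr (Cfsg.Agent.Lib.Helper19Ind.indFun_isClassFunction H (aa 2 b z x))
    (Cfsg.Agent.Lib.Helper21FR.indFun_local (M := M) (aa_classfn (p := 2) b hz x)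
      (aa_local b z x)) (isPBlock_sameBlock hind.2.1 hχ hψ)
  rw [yy_div_eq hM hb hd hz]
  intro h
  rcases memLocalIdeal_or_of_mul (sc_mem hM hχ) (om_aa_mem hM b hz χ x) h with h | h
  · exact sc_unit hM hχ h
  · apply s4
    have := memLocalIdeal_sub h s5
    rwa [sub_sub_cancel] at this

/-- **(H3)** -/
theorem not_dvd_sum_bet_av (hM : IsPModular 2 M) {b : Set (IrrCharacter H)}
    {B : Set (IrrCharacter G)} (hind : IsInducedBlock M H b B)
    (hd : blockDefect 2 b = blockDefect 2 B)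
    (hz : ∀ h : H, h * z = z * h) (hzk : z ^ (2 ^ k) = 1) (R : RootData z k ω sg idx)
    {x : IrrCharacter H → ℤ} (hx : Odd (bet 2 b x x)) {χ : IrrCharacter G} (hχ : χ ∈ B) :
    ¬ (2 : ℤ) ^ (blockHeight 2 B (χ : G → ℂ) + 1) ∣
      ∑ i ∈ Finset.range (2 ^ (k - 1)), bet 2 b (av sg idx χ i) x := by
  have hMp := hM.2.1.isPrime
  have hb := isBlockUnion_of_isPBlock hind.1
  intro hdvd
  apply yy_div_unit hM hind hd hz hzk hx hχ
  set h := blockHeight 2 B (χ : G → ℂ) with hh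
  have h1 : ∀ i, ∃ c' : ℤ, i < 2 ^ (k - 1) → bet 2 b (av sg idx χ i) x = 2 ^ h * c' := by
    intro i
    by_cases hi : i < 2 ^ (k - 1)
    · obtain ⟨c', hc'⟩ := pow_dvd_bet_av hM hb hd hz R hχ x hi
      exact ⟨c', fun _ => hc'⟩
    · exact ⟨0, fun h => absurd h hi⟩
  choose c' hc' using h1
  have h2 : ∑ i ∈ Finset.range (2 ^ (k - 1)), bet 2 b (av sg idx χ i) x
      = 2 ^ h * ∑ i ∈ Finset.range (2 ^ (k - 1)), c' i := by
    rw [Finset.mul_sum]
    exact Finset.sum_congr rfl (fun i hi => hc' i (Finset.mem_range.1 hi))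
  rw [h2, pow_succ] at hdvd
  have h3 : (2 : ℤ) ∣ ∑ i ∈ Finset.range (2 ^ (k - 1)), c' i :=
    Int.dvd_of_mul_dvd_mul_left (by positivity) hdvd
  have h4 : yy 2 b z 1 χ x / 2 ^ h = ∑ i ∈ Finset.range (2 ^ (k - 1)), (c' i : ℂ) * ω ^ i := by
    rw [yy_eq_sum R b 1 (Nat.coprime_one_left _)]
    have h20 : (2 : ℂ) ^ h ≠ 0 := pow_ne_zero _ two_ne_zero
    rw [div_eq_iff h20, Finset.sum_mul]
    apply Finset.sum_congr rfl
    intro i hi
    rw [hc' i (Finset.mem_range.1 hi), mul_one]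
    push_cast
    ring
  rw [h4]
  have h5 : ∑ i ∈ Finset.range (2 ^ (k - 1)), (c' i : ℂ) * ω ^ i
      = ∑ i ∈ Finset.range (2 ^ (k - 1)), (c' i : ℂ) * (ω ^ i - 1)
        + ((∑ i ∈ Finset.range (2 ^ (k - 1)), c' i : ℤ) : ℂ) := by
    push_cast
    rw [← Finset.sum_add_distrib]
    apply Finset.sum_congr rfl
    intro i _
    ring
  rw [h5]
  apply memLocalIdeal_add
  · apply memLocalIdeal_sum
    intro i _
    apply memLocalIdeal_mul (memLocalRing_intCast _)
    have hωi : IsIntegral ℤ ω :=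
      IsIntegral.of_pow (n := 2 ^ k) (by positivity) (by rw [R.prim.pow_eq_one]; exact isIntegral_one)
    apply Cfsg.Agent.Lib.Helper79Teich.sub_one_of_pow_p_pow hM k
      (memLocalRing_of_isIntegral (hωi.pow i))
    rw [← pow_mul, mul_comm, pow_mul, R.prim.pow_eq_one, one_pow, sub_self]
    exact memLocalIdeal_zero
  · rw [memLocalIdeal_intCast_iff hM]
    exact_mod_cast h3

end Cfsg.Agent.Lib.Helper82Coef2
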