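import Mathlib
import Cfsg.Agent.Lib.Helper82Descent

set_option autoImplicit false

/-!
The dual (orthogonal complement) of a tight frame: if `a k` is a tight frame for `β` with constant
`2^d`, the standard basis of `ℤ^K` is a tight frame for `2^d ⟨ , ⟩ - β(A ·, A ·)`.
-/

namespace Cfsg.Agent.Lib.Helper82Dual

open Cfsg.Agent.Lib.Helper82Lattice Cfsg.Agent.Lib.Helper82Descent

variable {V : Type*} [AddCommGroup V]

theorem dual_sys {K : Type*} [Fintype K] [DecidableEq K] {β : V →ₗ[ℤ] V →ₗ[ℤ] ℤ} {a : K → V}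
    {h : K → ℕ} {d : ℕ} (psd : PSD β)
    (h1 : ∀ m, ∑ k, (β (a k) m) ^ 2 ≤ 2 ^ d * β m m)
    (h2 : ∀ k m, (2 : ℤ) ^ (h k) ∣ β (a k) m)
    (h3 : ∀ k x, Odd (β x x) → ¬ (2 : ℤ) ^ (h k + 1) ∣ β (a k) x)
    (h4 : ∀ u v, Even (β u v - β u u * β v v))
    (h5 : ∃ k, Odd (β (a k) (a k)))
    (hd : ∀ k, h k < d)
    (h6 : 2 ^ d * (Fintype.card K : ℤ) - ∑ k, β (a k) (a k) ≤ 3 * 2 ^ d) :
    ∃ β' : (K → ℤ) →ₗ[ℤ] (K → ℤ) →ₗ[ℤ] ℤ,
      Sys β' (fun k (_ : Unit) => (Pi.single k 1 : K → ℤ)) h d := by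
  set A : (K → ℤ) →ₗ[ℤ] V := Fintype.linearCombination ℤ a with hA
  have hAs : ∀ k, A (Pi.single k 1) = a k := by
    intro k
    rw [hA, Fintype.linearCombination_apply_single, one_smul]
  have hAe : ∀ (m : K → ℤ) (w : V), β (A m) w = ∑ k, m k * β (a k) w := by
    intro m w
    rw [hA, Fintype.linearCombination_apply, map_sum, LinearMap.sum_apply]
    apply Finset.sum_congr rfl
    intro k _
    rw [map_smul, LinearMap.smul_apply, smul_eq_mul]
  set β' : (K → ℤ) →ₗ[ℤ] (K → ℤ) →ₗ[ℤ] ℤ :=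
    ((2 : ℤ) ^ d) • Matrix.toBilin' (1 : Matrix K K ℤ) - β.compl₁₂ A A with hβ'
  have hb : ∀ u v, β' u v = 2 ^ d * ∑ k, u k * v k - β (A u) (A v) := by
    intro u v
    rw [hβ']
    simp only [LinearMap.sub_apply, LinearMap.smul_apply, LinearMap.compl₁₂_apply,
      Matrix.toBilin'_apply', Matrix.one_mulVec, smul_eq_mul]
    rfl
  have hbs : ∀ k m, β' (Pi.single k 1) m = 2 ^ d * m k - β (a k) (A m) := by
    intro k m
    rw [hb, hAs]
    congr 2
    rw [Finset.sum_eq_single k]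
    · simp
    · intro j _ hj
      simp [Pi.single_eq_of_ne hj]
    · intro hk; exact absurd (Finset.mem_univ k) hk
  obtain ⟨k₀, hk₀⟩ := h5
  obtain ⟨e, he⟩ : ∃ e : ℤ, (2 : ℤ) ^ d = 2 * e := by
    obtain ⟨d', hd'⟩ : ∃ d', d = d' + 1 := ⟨d - 1, by have := hd k₀; omega⟩
    exact ⟨2 ^ d', by rw [hd', pow_succ]; ring⟩
  have hpos : (0 : ℤ) < 2 ^ d := by positivity
  have hnn : ∀ m : K → ℤ, β (A m) (A m) ≤ 2 ^ d * ∑ k, m k * m k := by
    intro m
    set X := β (A m) (A m) with hX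
    have hX0 : 0 ≤ X := psd.nonneg _
    have hS0 : 0 ≤ ∑ k, m k * m k := Finset.sum_nonneg (fun k _ => mul_self_nonneg _)
    rcases hX0.eq_or_lt with h0 | h0
    · rw [← h0]; positivity
    · have c1 : X = ∑ k, m k * β (a k) (A m) := hAe m (A m)
      have c2 := Finset.sum_mul_sq_le_sq_mul_sq Finset.univ m (fun k => β (a k) (A m))
      rw [← c1] at c2
      have c3 := h1 (A m)
      rw [← hX] at c3
      have c4 : X ^ 2 ≤ (∑ k, m k ^ 2) * (2 ^ d * X) :=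
        c2.trans (mul_le_mul_of_nonneg_left c3 (Finset.sum_nonneg (fun k _ => sq_nonneg _)))
      have c5 : ∑ k, m k ^ 2 = ∑ k, m k * m k :=
        Finset.sum_congr rfl (fun k _ => sq (m k))
      rw [c5] at c4
      have c6 : X * X ≤ (2 ^ d * ∑ k, m k * m k) * X := by nlinarith
      exact le_of_mul_le_mul_right c6 h0
  refine ⟨β', ⟨⟨?_, ?_⟩, ?_, ?_, ?_, ?_, ?_, ?_⟩⟩
  · intro m n
    rw [hb, hb, psd.symm]
    congr 2
    exact Finset.sum_congr rfl (fun k _ => mul_comm _ _)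
  · intro m
    rw [hb]
    have := hnn m
    linarith
  · intro m
    simp only [Finset.univ_unique, Finset.sum_singleton, hbs]
    rw [hb]
    have c1 : β (A m) (A m) = ∑ k, m k * β (a k) (A m) := hAe m (A m)
    have c3 := h1 (A m)
    have e1 : ∑ k, (2 ^ d * m k - β (a k) (A m)) ^ 2
        = 2 ^ d * 2 ^ d * ∑ k, m k * m k - 2 * 2 ^ d * ∑ k, m k * β (a k) (A m)
          + ∑ k, (β (a k) (A m)) ^ 2 := by
      rw [Finset.mul_sum, Finset.mul_sum, ← Finset.sum_sub_distrib, ← Finset.sum_add_distrib]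
      apply Finset.sum_congr rfl
      intro k _
      ring
    rw [e1, ← c1]
    nlinarith
  · intro k _ m
    rw [hbs]
    apply dvd_sub
    · exact Dvd.dvd.mul_right (pow_dvd_pow 2 (hd k).le) _
    · exact h2 k _
  · intro k x hx
    simp only [Finset.univ_unique, Finset.sum_singleton, hbs]
    rw [hb, he] at hx
    have hx' : Odd (β (A x) (A x)) := by
      have e1 : β (A x) (A x) = 2 * (e * ∑ k, x k * x k)
          - (2 * e * ∑ k, x k * x k - β (A x) (A x)) := by ring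
      rw [e1]
      exact (even_two_mul _).sub_odd hx
    intro hdvd
    apply h3 k (A x) hx'
    have c1 : (2 : ℤ) ^ (h k + 1) ∣ 2 ^ d * x k :=
      Dvd.dvd.mul_right (pow_dvd_pow 2 (hd k)) _
    have := dvd_sub c1 hdvd
    rwa [sub_sub_cancel] at this
  · intro u v
    obtain ⟨r, hr⟩ := h4 (A u) (A v)
    rw [hb, hb, hb, he]
    set P := ∑ k, u k * v k
    set Q := ∑ k, u k * u k
    set R := ∑ k, v k * v k
    refine ⟨e * P - β (A u) (A u) * β (A v) (A v) - r - 2 * e ^ 2 * Q * R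
      + e * Q * β (A v) (A v) + e * R * β (A u) (A u), ?_⟩
    linear_combination (-1 : ℤ) * hr
  · refine ⟨Pi.single k₀ 1, ?_⟩
    rw [hbs, hAs, he]
    simp only [Pi.single_eq_same, mul_one]
    exact (even_two_mul _).sub_odd hk₀
  · simp only [Finset.univ_unique, Finset.sum_singleton, hbs, hAs, Pi.single_eq_same, mul_one]
    rw [Finset.sum_sub_distrib, Finset.sum_const, Finset.card_univ, nsmul_eq_mul]
    linarith

theorem dual_bound {K : Type*} [Fintype K] [DecidableEq K] {β : V →ₗ[ℤ] V →ₗ[ℤ] ℤ} {a : K → V}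
    {h : K → ℕ} {d : ℕ} (psd : PSD β)
    (h1 : ∀ m, ∑ k, (β (a k) m) ^ 2 ≤ 2 ^ d * β m m)
    (h2 : ∀ k m, (2 : ℤ) ^ (h k) ∣ β (a k) m)
    (h3 : ∀ k x, Odd (β x x) → ¬ (2 : ℤ) ^ (h k + 1) ∣ β (a k) x)
    (h4 : ∀ u v, Even (β u v - β u u * β v v))
    (h5 : ∃ k, Odd (β (a k) (a k)))
    (hd : ∀ k, h k < d)
    (h6 : 2 ^ d * (Fintype.card K : ℤ) - ∑ k, β (a k) (a k) ≤ 3 * 2 ^ d) :
    ∑ k, (if h k = 0 then (3 : ℤ) else 2 ^ (h k + 1)) ≤ 3 * 2 ^ d := by
  obtain ⟨β', S⟩ := dual_sys psd h1 h2 h3 h4 h5 hd h6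
  exact S.bound

end Cfsg.Agent.Lib.Helper82Dual
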