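import Mathlib
import Cfsg.Agent.Lib.Helper77Cyc1
import Cfsg.Agent.Lib.Helper82Mult
import Cfsg.Agent.Lib.Helper82Quot
import Cfsg.Agent.S0887
import Cfsg.Agent.S0867
import Cfsg.Agent.Lib.Helper82TISolv

set_option autoImplicit false
set_option linter.unusedSectionVars false
set_option linter.unusedVariables false

/-!
# Itô's theorem on linear groups of small degree, for groups with a normal `p`-complement

If `Γ` has a normal `p'`-subgroup `K` of `p`-power index and a faithful character of degree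
`< p - 1`, then the Sylow `p`-subgroups of `Γ` are normal.  The proof uses the Galois invariance of
the canonical extension.
-/

namespace Cfsg.Agent.Lib.Helper82Ito

open Cfsg.Agent.Lib.Helper4Char Cfsg.Agent.Lib.Helper4Char2 Cfsg.Agent.Lib.Helper4Char3
  Cfsg.Agent.Lib.Helper4Char4
open Cfsg.Agent.Lib.Helper82Irr Cfsg.Agent.Lib.Helper82Mult Cfsg.Agent.Lib.Helper82Quot

theorem arith {p d f : ℕ} {M : ℤ} (hp : p.Prime) (hd : d + 1 < p)
    (h : (p : ℤ) * f = d + ((p : ℤ) - 1) * M) (hM : M ≤ d) : M = d := by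
  have h1 : ((p : ℤ) - 1) * ((d : ℤ) - M) = p * ((d : ℤ) - f) := by linear_combination h
  have hcop : IsCoprime (p : ℤ) ((p : ℤ) - 1) := ⟨1, -1, by ring⟩
  have hdvd : (p : ℤ) ∣ ((p : ℤ) - 1) * ((d : ℤ) - M) := ⟨_, h1⟩
  obtain ⟨w, hw⟩ := hcop.dvd_of_dvd_mul_left hdvd
  have hp0 : (0 : ℤ) < p := by exact_mod_cast hp.pos
  have h2 : ((p : ℤ) - 1) * w = (d : ℤ) - f := by
    have : (p : ℤ) * (((p : ℤ) - 1) * w) = p * ((d : ℤ) - f) := by
      rw [← h1, hw]; ring
    exact mul_left_cancel₀ hp0.ne' this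
  have hw0 : 0 ≤ w := by
    by_contra hneg
    push Not at hneg
    have : (d : ℤ) - M < 0 := by rw [hw]; exact mul_neg_of_pos_of_neg hp0 hneg
    linarith
  have hd' : (d : ℤ) + 1 < p := by exact_mod_cast hd
  have hf0 : (0 : ℤ) ≤ f := Int.natCast_nonneg f
  have hw1 : w < 1 := by
    by_contra hge
    push Not at hge
    nlinarith
  have : w = 0 := by omega
  rw [this, mul_zero] at hw
  linarith

theorem card_filter_dvd (p N : ℕ) (hp : 0 < p) :
    ((Finset.range (p * N)).filter (p ∣ ·)).card = N := by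
  have : (Finset.range (p * N)).filter (p ∣ ·) = (Finset.range N).image (p * ·) := by
    ext i
    simp only [Finset.mem_filter, Finset.mem_range, Finset.mem_image]
    constructor
    · rintro ⟨h1, a, rfl⟩
      exact ⟨a, lt_of_mul_lt_mul_left h1 (Nat.zero_le p), rfl⟩
    · rintro ⟨a, ha, rfl⟩
      exact ⟨Nat.mul_lt_mul_of_pos_left ha hp, dvd_mul_right p a⟩
  rw [this, Finset.card_image_of_injective _ (fun a b h => Nat.eq_of_mul_eq_mul_left hp h),
    Finset.card_range]

theorem sum_subgroup {G : Type*} [Group G] {χ : G → ℂ} (hχ : Cfsg.IsCharacter G χ)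
    (H : Subgroup G) [Fintype H] : ∃ n : ℕ, ∑ u : H, χ u = (Nat.card H : ℂ) * n := by
  obtain ⟨n, ρ, hρ⟩ := hχ
  set σ : Representation ℂ H (Fin n → ℂ) := ρ.comp H.subtype with hσ
  have hne : (Nat.card H : ℂ) ≠ 0 := card_ne_zero
  have : Invertible (Nat.card H : ℂ) := invertibleOfNonzero hne
  have := Representation.card_inv_mul_sum_char_eq_finrank σ
  refine ⟨Module.finrank ℂ (Representation.invariants σ), ?_⟩
  rw [← this, ← hρ]
  rw [← mul_assoc, mul_inv_cancel₀ hne, one_mul]
  rfl


section Canonical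

variable {Γ : Type*} [Group Γ] [Finite Γ] (p : ℕ) [Fact p.Prime] (K : Subgroup Γ) [K.Normal]

/-- the `p`-elements lie in the kernel of a canonical extension of degree `< p - 1`. -/
theorem pElement_mem_ker (hK : (Nat.card K).Coprime p) (k : ℕ) (hidx : K.index = p ^ k)
    {τ : Γ → ℂ} (hτ : Cfsg.IsIrrCharacter Γ τ)
    (hres : Cfsg.IsIrrCharacter K (fun g : K => τ g))
    (hdet : (Cfsg.detOrder τ).Coprime K.index) (hdeg : Cfsg.charDegree τ + 1 < p) :
    ∀ (s : ℕ) (c : Γ), orderOf c = p ^ s → τ c = τ 1 := by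
  classical
  have hp : p.Prime := Fact.out
  have hcop : (Nat.card K).Coprime K.index := by rw [hidx]; exact Nat.Coprime.pow_right k hK
  have hτc : Cfsg.IsCharacter Γ τ := IsIrrCharacter.isCharacter hτ
  set d := Cfsg.charDegree τ with hd
  have hd1 : τ 1 = d := (charDegree_cast hτc).symm
  intro s
  induction s with
  | zero =>
    intro c hc
    rw [pow_zero, orderOf_eq_one_iff] at hc
    rw [hc]
  | succ s ih =>
    intro c hc
    have hcp : τ (c ^ p) = τ 1 := by
      apply ih
      rw [orderOf_pow_of_dvd hp.ne_zero (by rw [hc]; exact dvd_pow_self p (Nat.succ_ne_zero s)), hc,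
        pow_succ, Nat.mul_div_cancel _ hp.pos]
    have hcidx : c ^ K.index = 1 := by
      apply orderOf_dvd_iff_pow_eq_one.1
      have h1 : orderOf c ∣ Nat.card K * K.index := by
        rw [Subgroup.card_mul_index]; exact orderOf_dvd_natCard c
      have h2 : (orderOf c).Coprime (Nat.card K) := by
        rw [hc]; exact (Nat.Coprime.pow_right _ hK).symm
      exact h2.dvd_of_dvd_mul_left h1
    have hval : ∀ i : ℕ, τ (c ^ i) = if p ∣ i then τ 1 else τ c := by
      intro i
      split_ifs with hi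
      · obtain ⟨a, rfl⟩ := hi
        rw [pow_mul]
        have : c ^ p ∈ charKer hτc := hcp
        exact (charKer hτc).pow_mem this a
      · have hk : i.Coprime K.index := by
          rw [hidx]
          exact Nat.Coprime.pow_right k ((Nat.Prime.coprime_iff_not_dvd hp).2 hi).symm
        have := Cfsg.Agent.Lib.Helper77Cyc1.canonical_gen K hτ hres hcop hdet 1 c K.one_mem
          (Commute.one_left c) hcidx i hk
        simpa using this
    let _ : Fintype (Subgroup.zpowers c) := Fintype.ofFinite _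
    obtain ⟨f, hf⟩ := sum_subgroup hτc (Subgroup.zpowers c)
    have hsum : ∑ u : Subgroup.zpowers c, τ u = ∑ i ∈ Finset.range (p * p ^ s), τ (c ^ i) := by
      have hfin : IsOfFinOrder c := isOfFinOrder_of_finite c
      rw [← Equiv.sum_comp (finEquivZPowers hfin)]
      simp only [finEquivZPowers_apply]
      rw [Fin.sum_univ_eq_sum_range (fun i => τ (c ^ i)), hc, pow_succ']
    rw [hsum, Finset.sum_congr rfl fun i _ => hval i, Finset.sum_ite, Finset.sum_const,
      Finset.sum_const, card_filter_dvd p (p ^ s) hp.pos, Nat.card_zpowers, hc] at hf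
    have hcard2 : ((Finset.range (p * p ^ s)).filter (fun i => ¬ p ∣ i)).card + p ^ s
        = p * p ^ s := by
      have := Finset.card_filter_add_card_filter_not (s := Finset.range (p * p ^ s)) (p ∣ ·)
      rw [card_filter_dvd p (p ^ s) hp.pos, Finset.card_range] at this
      omega
    set N2 := ((Finset.range (p * p ^ s)).filter (fun i => ¬ p ∣ i)).card with hN2
    have hN2' : (N2 : ℂ) = ((p : ℂ) - 1) * (p : ℂ) ^ s := by
      have : ((N2 + p ^ s : ℕ) : ℂ) = ((p * p ^ s : ℕ) : ℂ) := by rw [hcard2]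
      push_cast at this
      linear_combination this
    have hps : ((p : ℂ) ^ s) ≠ 0 := pow_ne_zero _ (by exact_mod_cast hp.ne_zero)
    have hrel : (p : ℂ) * f = d + ((p : ℂ) - 1) * τ c := by
      simp only [nsmul_eq_mul] at hf
      rw [hN2', hd1] at hf
      push_cast at hf
      have : (p : ℂ) ^ s * ((p : ℂ) * f) = (p : ℂ) ^ s * (d + ((p : ℂ) - 1) * τ c) := by
        rw [pow_succ] at hf
        linear_combination -hf
      exact mul_left_cancel₀ hps this
    have hp1 : ((p : ℂ) - 1) ≠ 0 := by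
      have : (1 : ℂ) ≠ p := by exact_mod_cast hp.one_lt.ne
      exact sub_ne_zero.2 this.symm
    have hq : τ c = (((p : ℚ) * f - d) / ((p : ℚ) - 1) : ℚ) := by
      push_cast
      field_simp
      linear_combination -hrel
    obtain ⟨M, hM⟩ := exists_int_of_isIntegral_rat _ (hq ▸ IsCharacter.isIntegral hτc c)
    have hcM : τ c = (M : ℂ) := by
      rw [hq, ← hM]
      push_cast
      rfl
    have hMd : M ≤ d := by
      have h1 := irr_norm_le ⟨τ, hτ⟩ c
      simp only at h1
      rw [hcM, hd1, Complex.norm_intCast, Complex.norm_natCast] at h1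
      have h2 : (M : ℝ) ≤ d := le_trans (le_abs_self _) h1
      exact_mod_cast h2
    have hrelZ : (p : ℤ) * f = d + ((p : ℤ) - 1) * M := by
      rw [hcM] at hrel
      exact_mod_cast hrel
    rw [hcM, hd1, arith hp hdeg hrelZ hMd]
    simp

/-- the `p`-elements centralize `K`, if there is a faithful character of degree `< p - 1`. -/
theorem commute_of_faithful (hK : (Nat.card K).Coprime p) (k : ℕ) (hidx : K.index = p ^ k)
    {χ : Γ → ℂ} (hχ : Cfsg.IsCharacter Γ χ) (hfaith : ∀ g : Γ, χ g = χ 1 → g = 1)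
    (hdeg : Cfsg.charDegree χ + 1 < p) (s : ℕ) (c : Γ) (hc : orderOf c = p ^ s) (x : Γ)
    (hx : x ∈ K) : c * x = x * c := by
  classical
  have hp : p.Prime := Fact.out
  let _ : Fintype Γ := Fintype.ofFinite _
  let _ : Fintype K := Fintype.ofFinite _
  have hcop : (Nat.card K).Coprime K.index := by rw [hidx]; exact Nat.Coprime.pow_right k hK
  obtain ⟨m, hm, hsum⟩ := exists_mult hχ
  have hdegsum := degree_eq_sum_mult hχ m hsum
  set y : Γ := c * x * c⁻¹ * x⁻¹ with hy
  have hyK : y ∈ K := K.mul_mem ((inferInstance : K.Normal).conj_mem x hx c) (K.inv_mem hx)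
  have key : ∀ ψ : Cfsg.IrrCharacter Γ, m ψ ≠ 0 → ψ.1 y = ψ.1 1 := by
    intro ψ hψ
    have hle : Cfsg.charDegree ψ.1 ≤ Cfsg.charDegree χ := by
      rw [hdegsum]
      refine le_trans ?_ (Finset.single_le_sum (f := fun ψ => m ψ * Cfsg.charDegree ψ.1)
        (fun _ _ => Nat.zero_le _) (Finset.mem_univ ψ))
      exact Nat.le_mul_of_pos_left _ (Nat.pos_of_ne_zero hψ)
    have hψK : Cfsg.IsCharacter K (fun g : K => ψ.1 g) := IsCharacter.restrict K (irr_isCharacter ψ)
    have hdK : Cfsg.charDegree (fun g : K => ψ.1 g) = Cfsg.charDegree ψ.1 := rfl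
    obtain ⟨θ, hθ⟩ := Cfsg.Agent.Lib.Helper82TISolv.exists_constituent hψK
      (by rw [hdK]; exact (irr_charDegree_pos ψ).ne')
    obtain ⟨h1, h2⟩ := Cfsg.Agent.S0887.result K ψ.1 ψ.2 θ.1 θ.2 hθ (Cfsg.charDegree ψ.1)
      (Cfsg.charDegree θ.1) (irr_charDegree_cast ψ).symm (irr_charDegree_cast θ).symm
    rw [hidx] at h2
    obtain ⟨j, _, hj⟩ := (Nat.dvd_prime_pow hp).1 h2
    have hj0 : j = 0 := by
      by_contra hne
      have h3 : p ≤ Cfsg.charDegree ψ.1 / Cfsg.charDegree θ.1 := by
        rw [hj]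
        exact Nat.le_self_pow hne p
      have h4 := Nat.div_le_self (Cfsg.charDegree ψ.1) (Cfsg.charDegree θ.1)
      omega
    rw [hj0, pow_zero] at hj
    have hdeq : Cfsg.charDegree ψ.1 = Cfsg.charDegree θ.1 := by
      obtain ⟨a, ha⟩ := h1
      rw [ha, Nat.mul_div_cancel_left _ (irr_charDegree_pos θ)] at hj
      rw [ha, hj, mul_one]
    have hres : (fun g : K => ψ.1 g) = θ.1 := eq_of_degree_le hψK θ hθ (by rw [hdK, hdeq])
    have hirr : Cfsg.IsIrrCharacter K (fun g : K => ψ.1 g) := hres ▸ θ.2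
    have hdvd : Cfsg.charDegree ψ.1 ∣ Nat.card K := by
      rw [hdeq]
      obtain ⟨n, ρ, hirrρ, hρ⟩ := θ.2
      have h5 := finrank_dvd_card ρ
      have h6 : Cfsg.charDegree θ.1 = Module.finrank ℂ (Fin n → ℂ) := by
        rw [Cfsg.charDegree, ← hρ, Representation.char_one]
        simp
      rw [h6]
      exact h5
    obtain ⟨τ, ⟨hτ, hτK, hτdet⟩, -⟩ := Cfsg.Agent.S0867.result K (fun g : K => ψ.1 g) hirr
      (fun g n => IsIrrCharacter.isClassFunction ψ.2 _ _) (Cfsg.charDegree ψ.1)
      (irr_charDegree_cast ψ).symm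
      (Nat.Coprime.symm (Nat.Coprime.mul_left
        (hcop.coprime_dvd_left (Cfsg.Agent.Lib.Helper77Glaub4.detOrder_dvd_card hψK))
        (hcop.coprime_dvd_left hdvd)))
    have hτres : (fun g : K => τ g) = fun g : K => ψ.1 g := funext hτK
    have hτ1 : τ 1 = ψ.1 1 := hτK 1
    have hτdeg : Cfsg.charDegree τ = Cfsg.charDegree ψ.1 := by
      unfold Cfsg.charDegree
      rw [hτ1]
    have hker := pElement_mem_ker p K hK k hidx hτ (hτres ▸ hirr)
      (by
        rw [hτdet]
        exact hcop.coprime_dvd_left (Cfsg.Agent.Lib.Helper77Glaub4.detOrder_dvd_card hψK))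
      (by rw [hτdeg]; omega) s c hc
    have hτc := IsIrrCharacter.isCharacter hτ
    have hcker : c ∈ charKer hτc := hker
    have hyker : y ∈ charKer hτc := by
      have : y = c * (x * c⁻¹ * x⁻¹) := by rw [hy]; group
      rw [this]
      exact (charKer hτc).mul_mem hcker
        ((inferInstance : (charKer hτc).Normal).conj_mem _ ((charKer hτc).inv_mem hcker) x)
    have h7 : τ y = τ 1 := hyker
    rw [← hτ1, ← h7]
    exact (hτK ⟨y, hyK⟩).symm
  have hy1 : y = 1 := by
    apply hfaith
    rw [hsum]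
    simp only [Finset.sum_apply, Pi.smul_apply, smul_eq_mul]
    refine Finset.sum_congr rfl fun ψ _ => ?_
    by_cases hψ : m ψ = 0
    · rw [hψ]; simp
    · rw [key ψ hψ]
  calc c * x = (c * x * c⁻¹ * x⁻¹) * (x * c) := by group
    _ = x * c := by rw [← hy, hy1, one_mul]

/-- **Itô** (normal `p`-complement case). -/
theorem sylow_normal (hK : (Nat.card K).Coprime p) (k : ℕ) (hidx : K.index = p ^ k)
    {χ : Γ → ℂ} (hχ : Cfsg.IsCharacter Γ χ) (hfaith : ∀ g : Γ, χ g = χ 1 → g = 1)
    (hdeg : Cfsg.charDegree χ + 1 < p) (P : Sylow p Γ) : (P : Subgroup Γ).Normal := by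
  have hp : p.Prime := Fact.out
  have hKN : K ≤ Subgroup.normalizer ((P : Subgroup Γ) : Set Γ) := by
    intro x hx
    rw [Subgroup.mem_normalizer_iff]
    intro c
    have hcomm : ∀ c ∈ (P : Subgroup Γ), x * c * x⁻¹ = c := by
      intro c hc
      obtain ⟨s, hs⟩ := (IsPGroup.iff_orderOf.1 P.2) ⟨c, hc⟩
      rw [Subgroup.orderOf_mk] at hs
      have := commute_of_faithful p K hK k hidx hχ hfaith hdeg s c hs x hx
      rw [← this]; group
    constructor
    · intro hc
      rw [hcomm c hc]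
      exact hc
    · intro hc
      have h1 := hcomm _ hc
      have h2 : c = x * c * x⁻¹ := by
        have : x * (x * c * x⁻¹) * x⁻¹ = x * c * x⁻¹ := h1
        have h3 : x * c * x⁻¹ = x⁻¹ * (x * (x * c * x⁻¹) * x⁻¹) * x := by group
        rw [this] at h3
        calc c = x⁻¹ * (x * c * x⁻¹) * x := by group
          _ = x * c * x⁻¹ := h3.symm
      rw [h2]
      exact hc
  have h1 : (Subgroup.normalizer ((P : Subgroup Γ) : Set Γ)).index ∣ p ^ k := by
    rw [← hidx]; exact Subgroup.index_dvd_of_le hKN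
  have h2 : (Subgroup.normalizer ((P : Subgroup Γ) : Set Γ)).index ∣ (P : Subgroup Γ).index :=
    Subgroup.index_dvd_of_le Subgroup.le_normalizer
  obtain ⟨j, _, hj⟩ := (Nat.dvd_prime_pow hp).1 h1
  have hj0 : j = 0 := by
    by_contra hne
    apply P.not_dvd_index
    refine dvd_trans ?_ h2
    rw [hj]
    exact dvd_pow_self p hne
  rw [hj0, pow_zero, Subgroup.index_eq_one] at hj
  exact Subgroup.normalizer_eq_top_iff.1 hj

end Canonical

end Cfsg.Agent.Lib.Helper82Ito
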