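import Mathlib
import Cfsg.Agent.Lib.Helper82Major

set_option autoImplicit false
set_option linter.unusedSectionVars false

/-!
`k(B) ≤ p^d` for a block `B` with a major subsection `(z, b)` with `l(b) ≤ 2`.
-/

namespace Cfsg.Agent.Lib.Helper82Major2

open Cfsg
open Cfsg.Agent.Lib.Helper81Local Cfsg.Agent.Lib.Helper81Base Cfsg.Agent.Lib.Helper81BB
  Cfsg.Agent.Lib.Helper81Block Cfsg.Agent.Lib.Helper81Defect
  Cfsg.Agent.Lib.Helper81Subsec Cfsg.Agent.Lib.Helper81Rank
  Cfsg.Agent.Lib.Helper84Subsec Cfsg.Agent.Lib.Helper84Subsec2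
  Cfsg.Agent.Lib.Helper82Lattice Cfsg.Agent.Lib.Helper82Major
open scoped ComplexConjugate

theorem arith_ineq (A B Γ : ℤ) (hA : 2 ≤ A) (hAΓ : A ≤ Γ) (hB : 2 * |B| ≤ A) :
    A + Γ - |B| ≤ A * Γ - B ^ 2 := by
  have h0 : 0 ≤ |B| := abs_nonneg B
  have h1 : B ^ 2 = |B| ^ 2 := (sq_abs B).symm
  rw [h1]
  generalize |B| = u at *
  nlinarith [mul_nonneg h0 (by linarith : (0 : ℤ) ≤ A - 2 * u),
    mul_nonneg (by linarith : (0 : ℤ) ≤ A - 2 * u) (by linarith : (0 : ℤ) ≤ A - 2),
    mul_nonneg (by linarith : (0 : ℤ) ≤ A - 1) (by linarith : (0 : ℤ) ≤ Γ - A),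
    mul_nonneg (by linarith : (0 : ℤ) ≤ A) (by linarith : (0 : ℤ) ≤ A - 2)]

variable {G : Type*} [Group G] [Fintype G] {p : ℕ} [Fact p.Prime] {M : Ideal AlgInt}
variable {H : Subgroup G} [Fintype H]

theorem card_le_pow (hM : IsPModular p M) {b : Set (IrrCharacter H)} {B : Set (IrrCharacter G)}
    (hind : IsInducedBlock M H b B) (hd : blockDefect p b = blockDefect p B)
    {z : H} (hz : ∀ h : H, h * z = z * h) {k : ℕ}
    (hk : orderOf (z : G) = p ^ k) (hH : H = Subgroup.centralizer ({(z : G)} : Set G))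
    (hl : blockRank p b ≤ 2) : Nat.card B ≤ p ^ blockDefect p b := by
  classical
  have hMp := hM.2.1.isPrime
  have hp : p.Prime := Fact.out
  have hb := isBlockUnion_of_isPBlock hind.1
  have hB := hind.2.1
  have hzk : z ^ (p ^ k) = 1 := by
    apply Subtype.ext
    rw [Subgroup.coe_pow, Subgroup.coe_one, ← hk]
    exact pow_orderOf_eq_one _
  have hpsd := bet_psd (p := p) b
  have hrk := bet_rank (p := p) b hl
  obtain ⟨ψ₀, hψ₀, h0⟩ := exists_height_zero (p := p) (isPBlock_nonempty hB)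
  obtain ⟨ξ₀, hξ₀, hunit⟩ := exists_unit hM hind hz hzk hψ₀ h0
  set e₀ : IrrCharacter H → ℤ := Pi.single ξ₀ 1 with he₀
  have hne : ∃ v, 0 < bet p b v v := by
    refine ⟨e₀, lt_of_le_of_ne (hpsd.nonneg _) ?_⟩
    intro h
    apply hunit
    rw [yy_of_rad b z 1 ψ₀ h.symm]
    exact memLocalIdeal_zero
  have hnz := fun (χ : IrrCharacter G) (hχ : χ ∈ B) (m : IrrCharacter H → ℤ)
    (hy : ¬ MemLocalIdeal M (yy p b z 1 ψ₀ m)) => yy_ne_zero hM hb hB hd hz hψ₀ hχ m hy
  have hloc := fun (m : IrrCharacter H → ℤ) => yy_local hM b hz hzk 1 ψ₀ m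
  -- final step from an inequality `k * N ≤ p^d * N`
  have hfinal : ∀ N : ℤ, 0 < N → (Nat.card B : ℤ) * N ≤ (p : ℤ) ^ blockDefect p b * N →
      Nat.card B ≤ p ^ blockDefect p b := by
    intro N hN h
    have := le_of_mul_le_mul_right h hN
    exact_mod_cast this
  -- single vector criterion
  have hsingle : ∀ (m : IrrCharacter H → ℤ) (N : ℤ), 0 < N →
      (∀ ζ, N ∣ bet p b (Pi.single ζ 1) m) → bet p b m m ≤ N ^ 2 →
      ¬ MemLocalIdeal M (yy p b z 1 ψ₀ m) → Nat.card B ≤ p ^ blockDefect p b := by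
    intro m N hN hdiv hle hy
    have h1 := card_mul_le hM hb B hz hk hH ({()} : Finset Unit) (fun _ => m) N
      (fun _ _ => hdiv) 1 (fun χ hχ => ⟨{()}, subset_rfl, by simp, fun _ _ => hnz χ hχ m hy⟩)
    simp only [Finset.sum_singleton, Nat.cast_one, one_mul] at h1
    apply hfinal (N ^ 2) (by positivity)
    calc (Nat.card B : ℤ) * N ^ 2 ≤ (p : ℤ) ^ blockDefect p b * bet p b m m := h1
      _ ≤ _ := mul_le_mul_of_nonneg_left hle (by positivity)
  rcases reduce hpsd hrk hne with ⟨n₁, hA, hco⟩ | ⟨n₁, n₂, hA, hAΓ, hB2, hco⟩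
  · -- rank one
    apply hsingle n₁ (bet p b n₁ n₁) hA
    · intro ζ
      obtain ⟨c, hc⟩ := hco (Pi.single ζ 1)
      have := hpsd.rad hc n₁
      rw [map_sub, map_smul, LinearMap.sub_apply, LinearMap.smul_apply, smul_eq_mul,
        sub_eq_zero] at this
      rw [this]
      exact dvd_mul_left _ _
    · nlinarith
    · intro hy
      apply hunit
      obtain ⟨c, hc⟩ := hco e₀
      have h1 := yy_of_rad b z 1 ψ₀ hc
      rw [yy_sub, yy_smul, sub_eq_zero] at h1
      rw [h1]
      exact memLocalIdeal_mul (memLocalRing_intCast _) hy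
  · -- rank two
    have hcoord : ∀ (ζ : IrrCharacter H), ∃ c₁ c₂ : ℤ, ∀ x : IrrCharacter H → ℤ,
        bet p b (Pi.single ζ 1) x = c₁ * bet p b n₁ x + c₂ * bet p b n₂ x := by
      intro ζ
      obtain ⟨c₁, c₂, hc⟩ := hco (Pi.single ζ 1)
      refine ⟨c₁, c₂, fun x => ?_⟩
      have := hpsd.rad hc x
      simp only [map_sub, map_smul, LinearMap.sub_apply, LinearMap.smul_apply, smul_eq_mul] at this
      linarith
    obtain ⟨c₁, c₂, hc⟩ := hco e₀
    have hyy : ∀ χ : IrrCharacter G, yy p b z 1 χ e₀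
        = c₁ * yy p b z 1 χ n₁ + c₂ * yy p b z 1 χ n₂ := by
      intro χ
      have h1 := yy_of_rad b z 1 χ hc
      rw [yy_sub, yy_sub, yy_smul, yy_smul] at h1
      linear_combination h1
    have hs21 := hpsd.symm n₂ n₁
    by_cases hA1 : bet p b n₁ n₁ = 1
    · -- `A = 1`, `B = 0`
      have hB0 : bet p b n₁ n₂ = 0 := by
        rw [hA1] at hB2
        have := abs_nonneg (bet p b n₁ n₂)
        have : |bet p b n₁ n₂| = 0 := by omega
        exact abs_eq_zero.1 this
      have hΓ : 0 < bet p b n₂ n₂ := lt_of_lt_of_le hA hAΓ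
      by_cases hy1 : MemLocalIdeal M (yy p b z 1 ψ₀ n₁)
      · have hy2 : ¬ MemLocalIdeal M (yy p b z 1 ψ₀ n₂) := by
          intro hy2
          apply hunit
          rw [hyy]
          exact memLocalIdeal_add (memLocalIdeal_mul (memLocalRing_intCast _) hy1)
            (memLocalIdeal_mul (memLocalRing_intCast _) hy2)
        apply hsingle n₂ (bet p b n₂ n₂) hΓ _ (by nlinarith) hy2
        intro ζ
        obtain ⟨a₁, a₂, ha⟩ := hcoord ζ
        rw [ha, hB0, mul_zero, zero_add]
        exact dvd_mul_left _ _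
      · apply hsingle n₁ 1 one_pos (fun ζ => one_dvd _) (by rw [hA1]; norm_num) hy1
    · -- `A ≥ 2`
      have hA2 : 2 ≤ bet p b n₁ n₁ := by omega
      have hineq := arith_ineq _ _ _ hA2 hAΓ hB2
      set A := bet p b n₁ n₁ with hAdef
      set Bb := bet p b n₁ n₂ with hBdef
      set Γ := bet p b n₂ n₂ with hΓdef
      set Δ := A * Γ - Bb ^ 2 with hΔdef
      have hΔpos : 0 < Δ := by
        have := abs_nonneg Bb
        linarith
      obtain ⟨ε, hε, hεB⟩ : ∃ ε : ℤ, (ε = 1 ∨ ε = -1) ∧ ε * Bb = |Bb| := by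
        rcases abs_cases Bb with ⟨h, _⟩ | ⟨h, _⟩
        · exact ⟨1, Or.inl rfl, by rw [h, one_mul]⟩
        · exact ⟨-1, Or.inr rfl, by rw [h]; ring⟩
      set m₁ : IrrCharacter H → ℤ := Γ • n₁ - Bb • n₂ with hm₁
      set m₂ : IrrCharacter H → ℤ := A • n₂ - Bb • n₁ with hm₂
      set m₃ : IrrCharacter H → ℤ := m₁ + ε • m₂ with hm₃
      have e11 : bet p b n₁ m₁ = Δ := by
        rw [hm₁]; simp only [map_sub, map_smul, smul_eq_mul]; rw [hΔdef]; ring
      have e21 : bet p b n₂ m₁ = 0 := by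
        rw [hm₁]; simp only [map_sub, map_smul, smul_eq_mul, hs21]; ring
      have e12 : bet p b n₁ m₂ = 0 := by
        rw [hm₂]; simp only [map_sub, map_smul, smul_eq_mul]; ring
      have e22 : bet p b n₂ m₂ = Δ := by
        rw [hm₂]; simp only [map_sub, map_smul, smul_eq_mul, hs21]; rw [hΔdef]; ring
      have x1 : ∀ x, bet p b m₁ x = Γ * bet p b n₁ x - Bb * bet p b n₂ x := by
        intro x
        rw [hm₁]
        simp only [map_sub, map_smul, LinearMap.sub_apply, LinearMap.smul_apply, smul_eq_mul]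
      have x2 : ∀ x, bet p b m₂ x = A * bet p b n₂ x - Bb * bet p b n₁ x := by
        intro x
        rw [hm₂]
        simp only [map_sub, map_smul, LinearMap.sub_apply, LinearMap.smul_apply, smul_eq_mul]
      have f11 : bet p b m₁ m₁ = Δ * Γ := by
        rw [x1, e11, e21]; ring
      have f22 : bet p b m₂ m₂ = Δ * A := by
        rw [x2, e12, e22]; ring
      have f12 : bet p b m₁ m₂ = - (Δ * Bb) := by
        rw [x1, e12, e22]; ring
      have hε2 : ε ^ 2 = 1 := by rcases hε with h | h <;> rw [h] <;> norm_num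
      have f33 : bet p b m₃ m₃ = Δ * (A + Γ - 2 * |Bb|) := by
        rw [hm₃]
        simp only [map_add, map_smul, LinearMap.add_apply, LinearMap.smul_apply, smul_eq_mul,
          f11, f22, f12, hpsd.symm m₂ m₁]
        rw [← hεB]
        linear_combination (Δ * A) * hε2
      have hdiv : ∀ j ∈ (Finset.univ : Finset (Fin 3)), ∀ ζ,
          Δ ∣ bet p b (Pi.single ζ 1) ((![m₁, m₂, m₃] : Fin 3 → IrrCharacter H → ℤ) j) := by
        intro j _ ζ
        obtain ⟨a₁, a₂, ha⟩ := hcoord ζ
        have d1 : Δ ∣ bet p b (Pi.single ζ 1) m₁ := by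
          rw [ha, e11, e21, mul_zero, add_zero]; exact dvd_mul_left _ _
        have d2 : Δ ∣ bet p b (Pi.single ζ 1) m₂ := by
          rw [ha, e12, e22, mul_zero, zero_add]; exact dvd_mul_left _ _
        fin_cases j
        · exact d1
        · exact d2
        · show Δ ∣ bet p b (Pi.single ζ 1) m₃
          rw [hm₃, map_add, map_smul, smul_eq_mul]
          exact dvd_add d1 (Dvd.dvd.mul_left d2 _)
      have hn1 : Δ • n₁ = A • m₁ + Bb • m₂ := by
        rw [hm₁, hm₂, hΔdef]
        funext ζ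
        simp only [Pi.smul_apply, Pi.add_apply, Pi.sub_apply, smul_eq_mul]
        ring
      have hn2 : Δ • n₂ = Bb • m₁ + Γ • m₂ := by
        rw [hm₁, hm₂, hΔdef]
        funext ζ
        simp only [Pi.smul_apply, Pi.add_apply, Pi.sub_apply, smul_eq_mul]
        ring
      have hΔC : (Δ : ℂ) ≠ 0 := by exact_mod_cast hΔpos.ne'
      have hcount : ∀ χ ∈ B, ∃ s' ⊆ (Finset.univ : Finset (Fin 3)), 2 ≤ s'.card ∧
          ∀ j ∈ s', yy p b z 1 χ ((![m₁, m₂, m₃] : Fin 3 → IrrCharacter H → ℤ) j) ≠ 0 := by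
        intro χ hχ
        have hy0 := hnz χ hχ e₀ hunit
        have hy3 : yy p b z 1 χ m₃ = yy p b z 1 χ m₁ + ε * yy p b z 1 χ m₂ := by
          rw [hm₃, yy_add, yy_smul]
        have hεC : (ε : ℂ) ≠ 0 := by
          rcases hε with h | h <;> rw [h] <;> norm_num
        by_cases h1 : yy p b z 1 χ m₁ = 0
        · by_cases h2 : yy p b z 1 χ m₂ = 0
          · exfalso
            apply hy0
            have k1 := congrArg (yy p b z 1 χ) hn1
            have k2 := congrArg (yy p b z 1 χ) hn2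
            rw [yy_smul, yy_add, yy_smul, yy_smul, h1, h2] at k1 k2
            simp only [mul_zero, add_zero] at k1 k2
            have k1' := (mul_eq_zero.1 k1).resolve_left hΔC
            have k2' := (mul_eq_zero.1 k2).resolve_left hΔC
            rw [hyy, k1', k2']
            simp
          · refine ⟨{1, 2}, Finset.subset_univ _, by decide, ?_⟩
            intro j hj
            simp only [Finset.mem_insert, Finset.mem_singleton] at hj
            rcases hj with rfl | rfl
            · exact h2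
            · show yy p b z 1 χ m₃ ≠ 0
              rw [hy3, h1, zero_add]
              exact mul_ne_zero hεC h2
        · by_cases h2 : yy p b z 1 χ m₂ = 0
          · refine ⟨{0, 2}, Finset.subset_univ _, by decide, ?_⟩
            intro j hj
            simp only [Finset.mem_insert, Finset.mem_singleton] at hj
            rcases hj with rfl | rfl
            · exact h1
            · show yy p b z 1 χ m₃ ≠ 0
              rw [hy3, h2, mul_zero, add_zero]
              exact h1
          · refine ⟨{0, 1}, Finset.subset_univ _, by decide, ?_⟩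
            intro j hj
            simp only [Finset.mem_insert, Finset.mem_singleton] at hj
            rcases hj with rfl | rfl
            · exact h1
            · exact h2
      have hmain := card_mul_le hM hb B hz hk hH (Finset.univ : Finset (Fin 3))
        (![m₁, m₂, m₃] : Fin 3 → IrrCharacter H → ℤ) Δ hdiv 2 hcount
      have hsum : ∑ j : Fin 3, bet p b ((![m₁, m₂, m₃] : Fin 3 → IrrCharacter H → ℤ) j)
          ((![m₁, m₂, m₃] : Fin 3 → IrrCharacter H → ℤ) j)
          = 2 * (Δ * (A + Γ - |Bb|)) := by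
        rw [Fin.sum_univ_three]
        show bet p b m₁ m₁ + bet p b m₂ m₂ + bet p b m₃ m₃ = _
        rw [f11, f22, f33]
        ring
      rw [hsum] at hmain
      apply hfinal (2 * Δ ^ 2) (by positivity)
      have hpd : (0 : ℤ) ≤ (p : ℤ) ^ blockDefect p b := by positivity
      calc (Nat.card B : ℤ) * (2 * Δ ^ 2) = ((2 : ℕ) : ℤ) * (Nat.card B : ℤ) * Δ ^ 2 := by
            push_cast; ring
        _ ≤ (p : ℤ) ^ blockDefect p b * (2 * (Δ * (A + Γ - |Bb|))) := hmain
        _ ≤ (p : ℤ) ^ blockDefect p b * (2 * (Δ * Δ)) := by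
            apply mul_le_mul_of_nonneg_left _ hpd
            apply mul_le_mul_of_nonneg_left _ (by norm_num)
            exact mul_le_mul_of_nonneg_left hineq hΔpos.le
        _ = _ := by ring

end Cfsg.Agent.Lib.Helper82Major2
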