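import Mathlib
import Cfsg.Prelude.Def_Blocks
import Cfsg.Prelude.Def_BlockRank
import Cfsg.Agent.Lib.Helper82Coef2

set_option autoImplicit false
set_option linter.unusedSectionVars false

/-!
`2`-blocks with a major subsection `(z, b)`, `l(b) ≤ 3`:
`3 k₀(B) + 2 ∑_{h ≥ 1} 2^h k_h(B) ≤ 3 · 2^d`.
-/

namespace Cfsg.Agent.Lib.Helper82Major3

open Cfsg
open Cfsg.Agent.Lib.Helper81Local Cfsg.Agent.Lib.Helper81Base Cfsg.Agent.Lib.Helper81BB
  Cfsg.Agent.Lib.Helper81Block Cfsg.Agent.Lib.Helper81Defect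
  Cfsg.Agent.Lib.Helper81Subsec Cfsg.Agent.Lib.Helper81Rank
  Cfsg.Agent.Lib.Helper84Subsec Cfsg.Agent.Lib.Helper84Subsec2
  Cfsg.Agent.Lib.Helper82Lattice Cfsg.Agent.Lib.Helper82Major Cfsg.Agent.Lib.Helper82Coef
  Cfsg.Agent.Lib.Helper82Coef2 Cfsg.Agent.Lib.Helper82Descent

variable {G : Type*} [Group G] [Fintype G] {M : Ideal AlgInt}
variable {H : Subgroup G} [Fintype H]
variable {z : H} {k : ℕ} {ω : ℂ} {sg : IrrCharacter H → ℤ} {idx : IrrCharacter H → ℕ}

theorem sys (hM : IsPModular 2 M) {b : Set (IrrCharacter H)} {B : Set (IrrCharacter G)}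
    [DecidablePred (· ∈ B)] (hind : IsInducedBlock M H b B)
    (hd : blockDefect 2 b = blockDefect 2 B)
    (hz : ∀ h : H, h * z = z * h) (hk : orderOf (z : G) = 2 ^ k)
    (hH : H = Subgroup.centralizer ({(z : G)} : Set G)) (R : RootData z k ω sg idx)
    (hl : blockRank 2 b ≤ 3) :
    Sys (bet 2 b) (fun (χ : {χ : IrrCharacter G // χ ∈ B}) (i : Fin (2 ^ (k - 1))) =>
        av sg idx χ.1 (i : ℕ))
      (fun χ => blockHeight 2 B (χ.1 : G → ℂ)) (blockDefect 2 b) := by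
  have hMp := hM.2.1.isPrime
  have hb := isBlockUnion_of_isPBlock hind.1
  have hzk : z ^ (2 ^ k) = 1 := by
    apply Subtype.ext
    rw [Subgroup.coe_pow, Subgroup.coe_one, ← hk]
    exact pow_orderOf_eq_one _
  have hsub : ∀ f : IrrCharacter G → ℤ, ∑ χ : {χ : IrrCharacter G // χ ∈ B}, f χ.1
      = ∑ χ : IrrCharacter G, if χ ∈ B then f χ else 0 := by
    intro f
    rw [← Finset.sum_filter]
    exact (Finset.sum_subtype (Finset.univ.filter (fun χ : IrrCharacter G => χ ∈ B))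
      (fun x => by simp) f).symm
  refine ⟨bet_psd b, ?_, ?_, ?_, ?_, ?_, ?_⟩
  · intro m
    rw [← sum_sq hM hb hz hk hH R m]
    rw [Finset.sum_congr rfl (fun (χ : {χ : IrrCharacter G // χ ∈ B}) _ =>
      (Finset.sum_range (fun i => (bet 2 b (av sg idx χ.1 i) m) ^ 2)).symm)]
    rw [hsub (fun χ => ∑ i ∈ Finset.range (2 ^ (k - 1)), (bet 2 b (av sg idx χ i) m) ^ 2)]
    apply Finset.sum_le_sum
    intro χ _
    split_ifs
    · exact le_rfl
    · exact Finset.sum_nonneg (fun i _ => sq_nonneg _)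
  · intro χ i m
    exact pow_dvd_bet_av hM hb hd hz R χ.2 m i.2
  · intro χ x hx
    rw [← Finset.sum_range (fun i => bet 2 b (av sg idx χ.1 i) x)]
    exact not_dvd_sum_bet_av hM hind hd hz hzk R hx χ.2
  · exact even_bet hM hind.1
  · obtain ⟨ψ, hψ, h0⟩ := exists_height_zero (p := 2) (isPBlock_nonempty hind.2.1)
    exact ⟨nv ψ, odd_bet_nv hM hind hψ h0⟩
  · rw [Finset.sum_congr rfl (fun (χ : {χ : IrrCharacter G // χ ∈ B}) _ =>
      (Finset.sum_range (fun i => bet 2 b (av sg idx χ.1 i) (av sg idx χ.1 i))).symm)]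
    rw [hsub (fun χ => ∑ i ∈ Finset.range (2 ^ (k - 1)), bet 2 b (av sg idx χ i) (av sg idx χ i)),
      sum_self hM hind hz hk hH R, mul_comm]
    have : (blockRank 2 b : ℤ) ≤ 3 := by exact_mod_cast hl
    have h2 : (0 : ℤ) < 2 ^ blockDefect 2 b := by positivity
    nlinarith

/-- **Main inequality.** -/
theorem weighted_le (hM : IsPModular 2 M) {b : Set (IrrCharacter H)} {B : Set (IrrCharacter G)}
    [DecidablePred (· ∈ B)] (hind : IsInducedBlock M H b B)
    (hd : blockDefect 2 b = blockDefect 2 B)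
    (hz : ∀ h : H, h * z = z * h) (hk : orderOf (z : G) = 2 ^ k)
    (hH : H = Subgroup.centralizer ({(z : G)} : Set G)) (hl : blockRank 2 b ≤ 3) :
    ∑ χ : IrrCharacter G, (if χ ∈ B then
      (if blockHeight 2 B (χ : G → ℂ) = 0 then (3 : ℤ) else 2 ^ (blockHeight 2 B (χ : G → ℂ) + 1))
        else 0) ≤ 3 * 2 ^ blockDefect 2 B := by
  have hzk : z ^ (2 ^ k) = 1 := by
    apply Subtype.ext
    rw [Subgroup.coe_pow, Subgroup.coe_one, ← hk]
    exact pow_orderOf_eq_one _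
  obtain ⟨ω, sg, idx, R⟩ := exists_rootData hz hzk
  have h1 := (sys hM hind hd hz hk hH R hl).bound
  rw [hd] at h1
  refine le_trans (le_of_eq ?_) h1
  rw [← Finset.sum_filter]
  exact Finset.sum_subtype (Finset.univ.filter (fun χ : IrrCharacter G => χ ∈ B))
      (fun x => by simp) (fun χ => if blockHeight 2 B (χ : G → ℂ) = 0 then (3 : ℤ)
        else 2 ^ (blockHeight 2 B (χ : G → ℂ) + 1))

end Cfsg.Agent.Lib.Helper82Major3
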