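import Mathlib
import Cfsg.Prelude.Def_Blocks
import Cfsg.Prelude.Def_BlockRank
import Cfsg.Agent.Lib.Helper82Major3
import Cfsg.Agent.Lib.Helper82Dual
import Cfsg.Agent.Lib.Helper78MajP

set_option autoImplicit false
set_option linter.unusedSectionVars false

/-!
`2`-blocks with `k(B) - l(b_z) ≤ 3` for a major subsection `(z, b_z)`.
-/

namespace Cfsg.Agent.Lib.Helper82Major4

open Cfsg
open Cfsg.Agent.Lib.Helper81Local Cfsg.Agent.Lib.Helper81Base Cfsg.Agent.Lib.Helper81BB
  Cfsg.Agent.Lib.Helper81Block Cfsg.Agent.Lib.Helper81Defect Cfsg.Agent.Lib.Helper81Orth2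
  Cfsg.Agent.Lib.Helper81Subsec Cfsg.Agent.Lib.Helper81Rank
  Cfsg.Agent.Lib.Helper84Subsec Cfsg.Agent.Lib.Helper84Subsec2
  Cfsg.Agent.Lib.Helper82Lattice Cfsg.Agent.Lib.Helper82Major Cfsg.Agent.Lib.Helper82Coef
  Cfsg.Agent.Lib.Helper82Coef2 Cfsg.Agent.Lib.Helper82Descent Cfsg.Agent.Lib.Helper82Dual
open scoped ComplexConjugate

variable {G : Type*} [Group G] [Fintype G] {M : Ideal AlgInt}

theorem height_lt {p : ℕ} (hM : IsPModular p M) {B : Set (IrrCharacter G)} (hB : IsPBlock M B)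
    (hd0 : blockDefect p B ≠ 0) {χ : IrrCharacter G} (hχ : χ ∈ B) :
    blockHeight p B (χ : G → ℂ) < blockDefect p B := by
  have hMp := hM.2.1.isPrime
  by_contra hcon
  push Not at hcon
  apply hd0
  rw [blockDefect_eq_zero_iff hM hB]
  refine ⟨χ, ?_⟩
  rw [isPBlock_eq_blockOf hB hχ, ← defect_zero_iff hM, not_dvd_div_iff hM.1]
  rw [blockDefect_def, blockHeight_def] at hcon
  have h1 := factorization_deg_le (p := p) χ
  have h2 := minVal_le (p := p) hχ
  omega

section bessel

variable {p : ℕ} [Fact p.Prime]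

theorem mm_add_le (hM : IsPModular p M) {u u' : G} (hu : ∃ k : ℕ, orderOf u = p ^ k)
    (hu' : ∃ k : ℕ, orderOf u' = p ^ k) (hne : ∀ x : G, x * u * x⁻¹ ≠ u')
    {H H' : Subgroup G} [Fintype H] [Fintype H'] (hH : H = Subgroup.centralizer ({u} : Set G))
    (hH' : H' = Subgroup.centralizer ({u'} : Set G)) {b : Set (IrrCharacter H)}
    {b' : Set (IrrCharacter H')} (hb : IsPBlock M b) (hb' : IsPBlock M b') (χ : IrrCharacter G) :
    ∃ r r' : ℝ, mm p b u (χ : G → ℂ) (χ : G → ℂ) = r ∧ mm p b' u' (χ : G → ℂ) (χ : G → ℂ) = r' ∧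
      r + r' ≤ 1 := by
  classical
  have hMp := hM.2.1.isPrime
  have hp : p.Prime := Fact.out
  have hχ := Cfsg.Agent.Lib.Helper4Char.IsIrrCharacter.isClassFunction χ.2
  have e1 := Cfsg.Agent.Lib.Helper78Maj.mm_self_eq hM u hu H hH (isBlockUnion_of_isPBlock hb) χ
  have e2 := Cfsg.Agent.Lib.Helper78Maj.mm_self_eq hM u' hu' H' hH' (isBlockUnion_of_isPBlock hb') χ
  set r : ℝ := ∑ ψ : IrrCharacter G, ‖mm p b u (χ : G → ℂ) (ψ : G → ℂ)‖ ^ 2 with hr
  set r' : ℝ := ∑ ψ : IrrCharacter G, ‖mm p b' u' (χ : G → ℂ) (ψ : G → ℂ)‖ ^ 2 with hr'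
  refine ⟨r, r', e1, e2, ?_⟩
  have hne' : ∀ x : G, x * u' * x⁻¹ ≠ u := by
    intro x hx
    apply hne x⁻¹
    rw [← hx]
    group
  set F : Bool → G → ℂ := fun i => if i then
    Cfsg.Agent.Lib.Helper78Sec.SP p u (Cfsg.Agent.Lib.Helper80Brauer.ext H (blockCoeff b)) (χ : G → ℂ)
    else Cfsg.Agent.Lib.Helper78Sec.SP p u' (Cfsg.Agent.Lib.Helper80Brauer.ext H' (blockCoeff b'))
      (χ : G → ℂ) with hF
  set m : Bool → ℝ := fun i => if i then r else r' with hm
  have key := Cfsg.Agent.Lib.Helper78MajP.sum_le_of_orth (χ : G → ℂ)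
    (Cfsg.Agent.Lib.Helper4Char.classInner_irr_self χ.2) Finset.univ F m
    (by
      intro i _
      rcases i with _ | _
      · exact Finset.sum_nonneg (fun _ _ => by positivity)
      · exact Finset.sum_nonneg (fun _ _ => by positivity))
    (by
      intro i _
      rcases i with _ | _
      · simp only [hF, hm, Bool.false_eq_true, if_false]
        rw [Cfsg.Agent.Lib.Helper78Sub.classInner_SP_eq_mm hM hu' hH' hb' hχ hχ, e2]
      · simp only [hF, hm, if_true]
        rw [Cfsg.Agent.Lib.Helper78Sub.classInner_SP_eq_mm hM hu hH hb hχ hχ, e1])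
    (fun i j => i = j)
    (by
      intro i _ j _
      rcases i with _ | _ <;> rcases j with _ | _
      · right
        refine ⟨?_, rfl⟩
        simp only [hF, hm, Bool.false_eq_true, if_false]
        rw [Cfsg.Agent.Lib.Helper78Sub.classInner_SP_SP hp hu' hH' _ _ hχ hχ, ← e2]
        rfl
      · left
        simp only [hF, Bool.false_eq_true, if_false, if_true]
        exact Cfsg.Agent.Lib.Helper78Sec.classInner_SP_SP_eq_zero hp hne'
      · left
        simp only [hF, Bool.false_eq_true, if_false, if_true]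
        exact Cfsg.Agent.Lib.Helper78Sec.classInner_SP_SP_eq_zero hp hne
      · right
        refine ⟨?_, rfl⟩
        simp only [hF, hm, if_true]
        rw [Cfsg.Agent.Lib.Helper78Sub.classInner_SP_SP hp hu hH _ _ hχ hχ, ← e1]
        rfl)
    1 one_pos
    (by
      intro i _ t _ ht
      rw [Finset.card_le_one]
      intro a ha c hc
      rw [← ht a ha, ← ht c hc])
  rw [Fintype.sum_bool] at key
  simp only [hm, if_true, Bool.false_eq_true, if_false, Nat.cast_one] at key
  exact key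

theorem rank_add_le (hM : IsPModular p M) {u u' : G} (hu : ∃ k : ℕ, orderOf u = p ^ k)
    (hu' : ∃ k : ℕ, orderOf u' = p ^ k) (hne : ∀ x : G, x * u * x⁻¹ ≠ u')
    {H H' : Subgroup G} [Fintype H] [Fintype H'] (hH : H = Subgroup.centralizer ({u} : Set G))
    (hH' : H' = Subgroup.centralizer ({u'} : Set G)) {b : Set (IrrCharacter H)}
    {b' : Set (IrrCharacter H')} {B : Set (IrrCharacter G)}
    (hind : IsInducedBlock M H b B) (hind' : IsInducedBlock M H' b' B) :
    blockRank p b + blockRank p b' ≤ Nat.card B := by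
  classical
  choose r r' h1 h2 h3 using mm_add_le hM hu hu' hne hH hH' hind.1 hind'.1
  have s1 := sum_mm_self' hM u hu H hH hind
  have s2 := sum_mm_self' hM u' hu' H' hH' hind'
  have hcard : Nat.card B = (Finset.univ.filter (fun χ : IrrCharacter G => χ ∈ B)).card := by
    rw [Nat.card_eq_fintype_card, Fintype.card_subtype]
  have s3 : ((blockRank p b + blockRank p b' : ℕ) : ℂ)
      = ((∑ χ : IrrCharacter G, (if χ ∈ B then r χ + r' χ else 0) : ℝ) : ℂ) := by
    push_cast
    rw [← s1, ← s2, ← Finset.sum_add_distrib]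
    apply Finset.sum_congr rfl
    intro χ _
    split_ifs
    · rw [h1, h2]; push_cast; rfl
    · simp
  have s4 : ((blockRank p b + blockRank p b' : ℕ) : ℝ)
      = ∑ χ : IrrCharacter G, (if χ ∈ B then r χ + r' χ else 0) := by
    apply Complex.ofReal_injective
    rw [← s3]
    push_cast
    rfl
  have s5 : ∑ χ : IrrCharacter G, (if χ ∈ B then r χ + r' χ else 0) ≤ (Nat.card B : ℝ) := by
    rw [hcard, Finset.card_filter]
    push_cast
    apply Finset.sum_le_sum
    intro χ _
    split_ifs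
    · exact h3 χ
    · exact le_rfl
  rw [← s4] at s5
  exact_mod_cast s5

end bessel

section dual

variable {H : Subgroup G} [Fintype H] {z : H}

theorem weighted_le_dual (hM : IsPModular 2 M) {b : Set (IrrCharacter H)}
    {B : Set (IrrCharacter G)} [DecidablePred (· ∈ B)] (hind : IsInducedBlock M H b B)
    (hd : blockDefect 2 b = blockDefect 2 B)
    (hz : ∀ h : H, h * z = z * h) (hk : orderOf (z : G) = 2 ^ 0)
    (hH : H = Subgroup.centralizer ({(z : G)} : Set G)) (hd0 : blockDefect 2 B ≠ 0)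
    (hcard : Nat.card B ≤ blockRank 2 b + 3) :
    ∑ χ : IrrCharacter G, (if χ ∈ B then
      (if blockHeight 2 B (χ : G → ℂ) = 0 then (3 : ℤ) else 2 ^ (blockHeight 2 B (χ : G → ℂ) + 1))
        else 0) ≤ 3 * 2 ^ blockDefect 2 B := by
  have hMp := hM.2.1.isPrime
  have hb := isBlockUnion_of_isPBlock hind.1
  have hzk : z ^ (2 ^ 0) = 1 := by
    apply Subtype.ext
    rw [Subgroup.coe_pow, Subgroup.coe_one, ← hk]
    exact pow_orderOf_eq_one _
  obtain ⟨ω, sg, idx, R⟩ := exists_rootData hz hzk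
  have hsub : ∀ f : IrrCharacter G → ℤ, ∑ χ : {χ : IrrCharacter G // χ ∈ B}, f χ.1
      = ∑ χ : IrrCharacter G, if χ ∈ B then f χ else 0 := by
    intro f
    rw [← Finset.sum_filter]
    exact (Finset.sum_subtype (Finset.univ.filter (fun χ : IrrCharacter G => χ ∈ B))
      (fun x => by simp) f).symm
  have H3 : ∀ (χ : {χ : IrrCharacter G // χ ∈ B}) (x : IrrCharacter H → ℤ), Odd (bet 2 b x x) →
      ¬ (2 : ℤ) ^ (blockHeight 2 B (χ.1 : G → ℂ) + 1) ∣ bet 2 b (av sg idx χ.1 0) x := by
    intro χ x hx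
    have := not_dvd_sum_bet_av hM hind hd hz hzk R hx χ.2
    simpa using this
  have key := dual_bound (K := {χ : IrrCharacter G // χ ∈ B}) (β := bet 2 b)
    (a := fun χ => av sg idx χ.1 0) (h := fun χ => blockHeight 2 B (χ.1 : G → ℂ))
    (d := blockDefect 2 b) (bet_psd b)
    (by
      intro m
      have h1 := sum_sq hM hb hz hk hH R m
      simp only [Nat.zero_sub, pow_zero, Finset.range_one, Finset.sum_singleton] at h1
      rw [← h1, hsub (fun χ => (bet 2 b (av sg idx χ 0) m) ^ 2)]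
      apply Finset.sum_le_sum
      intro χ _
      split_ifs
      · exact le_rfl
      · exact sq_nonneg _)
    (fun χ m => pow_dvd_bet_av hM hb hd hz R χ.2 m (by simp))
    H3
    (even_bet hM hind.1)
    (by
      obtain ⟨ψ, hψ, h0⟩ := exists_height_zero (p := 2) (isPBlock_nonempty hind.2.1)
      refine ⟨⟨ψ, hψ⟩, ?_⟩
      have hx := odd_bet_nv hM hind hψ h0
      have h3 := H3 ⟨ψ, hψ⟩ (nv ψ) hx
      simp only [h0, zero_add, pow_one] at h3
      rw [← even_iff_two_dvd, Int.not_even_iff_odd] at h3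
      have h4 := even_bet hM hind.1 (av sg idx ψ 0) (nv ψ)
      by_contra hcon
      rw [Int.not_odd_iff_even] at hcon
      have h5 : Even (bet 2 b (av sg idx ψ 0) (nv ψ)) := by
        have e : bet 2 b (av sg idx ψ 0) (nv ψ)
            = (bet 2 b (av sg idx ψ 0) (nv ψ)
              - bet 2 b (av sg idx ψ 0) (av sg idx ψ 0) * bet 2 b (nv ψ) (nv ψ))
              + bet 2 b (av sg idx ψ 0) (av sg idx ψ 0) * bet 2 b (nv ψ) (nv ψ) := by ring
        rw [e]
        exact h4.add (hcon.mul_right _)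
      exact (Int.not_even_iff_odd.2 h3) h5)
    (fun χ => by rw [hd]; exact height_lt hM hind.2.1 hd0 χ.2)
    (by
      have h1 := sum_self hM hind hz hk hH R
      simp only [Nat.zero_sub, pow_zero, Finset.range_one, Finset.sum_singleton] at h1
      rw [hsub (fun χ => bet 2 b (av sg idx χ 0) (av sg idx χ 0)), h1]
      have h2 : (Fintype.card {χ : IrrCharacter G // χ ∈ B} : ℤ) ≤ (blockRank 2 b : ℤ) + 3 := by
        rw [← Nat.card_eq_fintype_card]
        exact_mod_cast hcard
      have h3 : (0 : ℤ) < 2 ^ blockDefect 2 b := by positivity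
      nlinarith)
  rw [hd] at key
  refine le_trans (le_of_eq ?_) key
  rw [← Finset.sum_filter]
  exact Finset.sum_subtype (Finset.univ.filter (fun χ : IrrCharacter G => χ ∈ B))
      (fun x => by simp) (fun χ => if blockHeight 2 B (χ : G → ℂ) = 0 then (3 : ℤ)
        else 2 ^ (blockHeight 2 B (χ : G → ℂ) + 1))

end dual

end Cfsg.Agent.Lib.Helper82Major4
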