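import Mathlib
import Cfsg.Prelude.Def_Characters
import Cfsg.Agent.Lib.Helper79Coset
import Cfsg.Agent.Lib.Helper32Ind
import Cfsg.Agent.Lib.Helper82Linear
import Cfsg.Agent.Lib.Helper82Quot
import Cfsg.Agent.Lib.Helper81Base
import Cfsg.Agent.S0148
import Cfsg.Agent.S0012

set_option autoImplicit false
set_option linter.unusedVariables false
set_option linter.unusedSectionVars false

/-!
Characters of `p'`-degree over linear characters of a Sylow `p`-subgroup; a normal subgroup in the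
kernel of all `p'`-degree characters of `G / N` (`N` a normal `p'`-subgroup) meets `P` in `Φ(P)`.
-/

namespace Cfsg.Agent.Lib.Helper82PQChar

open Cfsg
open Cfsg.Agent.Lib.Helper79Coset Cfsg.Agent.Lib.Helper82Linear Cfsg.Agent.Lib.Helper82Quot
  Cfsg.Agent.Lib.Helper19Ind Cfsg.Agent.Lib.Helper81Base
open scoped ComplexConjugate

variable {G : Type*} [Group G] [Fintype G] {p : ℕ} [Fact p.Prime]

theorem exists_irr_over_linear (P : Sylow p G) [Fintype ↥(P : Subgroup G)] (N : Subgroup G)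
    [N.Normal] (hN : ¬ p ∣ Nat.card N) (f : ↥(P : Subgroup G) →* ℂˣ) :
    ∃ χ : IrrCharacter G, (∀ n ∈ N, (χ : G → ℂ) n = (χ : G → ℂ) 1) ∧
      ¬ p ∣ charDegree (χ : G → ℂ) ∧
      classInner (fun y : ↥(P : Subgroup G) => ((f y : ℂˣ) : ℂ))
        (fun y : ↥(P : Subgroup G) => (χ : G → ℂ) y) ≠ 0 := by
  classical
  have hp : p.Prime := Fact.out
  let _ : Fintype N := Fintype.ofFinite _
  set lam : ↥(P : Subgroup G) → ℂ := fun y => ((f y : ℂˣ) : ℂ) with hlam
  have hl : IsCharacter (P : Subgroup G) lam :=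
    Cfsg.Agent.Lib.Helper4Char.IsIrrCharacter.isCharacter (isIrrCharacter_of_hom f)
  set φ : G → ℂ := indFun (P : Subgroup G) lam with hφdef
  have hφ : IsCharacter G φ := Cfsg.Agent.S0148.result _ _ hl
  obtain ⟨m, hm, hm'⟩ := Cfsg.Agent.Lib.Helper4Char4.IsCharacter.eq_sum_nat hφ
  have hP0 : (Nat.card (P : Subgroup G) : ℂ) ≠ 0 := by exact_mod_cast Nat.card_pos.ne'
  have hN0 : (Nat.card N : ℂ) ≠ 0 := by exact_mod_cast Nat.card_pos.ne'
  -- values of `φ` on `N`
  have hφ1 : φ 1 = ((P : Subgroup G).index : ℂ) := by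
    rw [hφdef]
    unfold indFun
    have : ∀ x : G, extendByZero (P : Subgroup G) lam (x⁻¹ * 1 * x) = 1 := by
      intro x
      have e : x⁻¹ * 1 * x = ((1 : (P : Subgroup G)) : G) := by simp
      rw [e, extendByZero_coe, hlam]
      simp
    simp only [this]
    rw [Finset.sum_const, Finset.card_univ, nsmul_eq_mul, mul_one, ← Nat.card_eq_fintype_card]
    have h1 : (Nat.card G : ℂ) = (Nat.card (P : Subgroup G) : ℂ) * ((P : Subgroup G).index : ℂ) := by
      exact_mod_cast ((P : Subgroup G).card_mul_index).symm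
    rw [h1]
    field_simp
  have hφN : ∀ n : N, (n : G) ≠ 1 → φ n = 0 := by
    intro n hn
    rw [hφdef]
    unfold indFun
    rw [Finset.sum_eq_zero, mul_zero]
    intro x _
    apply extendByZero_of_not_mem
    intro hmem
    apply hn
    obtain ⟨k, hk⟩ := P.isPGroup' ⟨_, hmem⟩
    have h1 : (x⁻¹ * (n : G) * x) ^ (p ^ k) = 1 := by
      have := congrArg Subtype.val hk
      simpa using this
    have h2 : (n : G) ^ (p ^ k) = 1 := by
      have e : x⁻¹ * (n : G) * x = (MulAut.conj x⁻¹) (n : G) := by simp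
      rw [e, ← map_pow] at h1
      exact (map_eq_one_iff _ (MulAut.conj x⁻¹).injective).1 h1
    have h3 : orderOf (n : G) ∣ p ^ k := orderOf_dvd_of_pow_eq_one h2
    have h4 : orderOf (n : G) ∣ Nat.card N := by
      rw [Subgroup.orderOf_coe]; exact orderOf_dvd_natCard n
    have h5 : (p ^ k).Coprime (Nat.card N) :=
      Nat.Coprime.pow_left k ((Nat.Prime.coprime_iff_not_dvd hp).2 hN)
    have h6 : orderOf (n : G) = 1 := Nat.eq_one_of_dvd_coprimes h5 h3 h4
    exact orderOf_eq_one_iff.1 h6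
  have havg1 : avg N φ 1 = (Nat.card N : ℂ)⁻¹ * ((P : Subgroup G).index : ℂ) := by
    unfold avg
    rw [sum_ind_mul N (fun x => φ (x * 1))]
    congr 1
    rw [Finset.sum_eq_single (1 : N)]
    · simp [hφ1]
    · intro n _ hn
      rw [mul_one]
      apply hφN
      intro h
      exact hn (Subtype.ext h)
    · intro h; exact absurd (Finset.mem_univ _) h
  -- expansion of `avg N φ`
  have havg2 : avg N φ 1 = ∑ χ : IrrCharacter G,
      (if avg N (χ : G → ℂ) = (χ : G → ℂ) then ((m χ * charDegree (χ : G → ℂ) : ℕ) : ℂ) else 0) := by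
    conv_lhs => rw [hm]
    rw [avg_sum, Finset.sum_apply]
    apply Finset.sum_congr rfl
    intro χ _
    rw [avg_smul, Pi.smul_apply, smul_eq_mul]
    rcases avg_irr N χ.2 with h | h
    · rw [if_pos h, h]
      push_cast
      rw [charDegree_eq]
    · have hne : avg N (χ : G → ℂ) ≠ (χ : G → ℂ) := by
        intro h2
        rw [h] at h2
        have := congrFun h2 1
        exact irr_one_ne_zero χ this.symm
      rw [if_neg hne, h]
      simp
  have hnat : Nat.card N * ∑ χ : IrrCharacter G,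
      (if avg N (χ : G → ℂ) = (χ : G → ℂ) then m χ * charDegree (χ : G → ℂ) else 0)
      = (P : Subgroup G).index := by
    have h1 : ((Nat.card N * ∑ χ : IrrCharacter G,
      (if avg N (χ : G → ℂ) = (χ : G → ℂ) then m χ * charDegree (χ : G → ℂ) else 0) : ℕ) : ℂ)
      = (((P : Subgroup G).index : ℕ) : ℂ) := by
      push_cast
      have h2 : ∑ χ : IrrCharacter G, (if avg N (χ : G → ℂ) = (χ : G → ℂ) then
          ((m χ : ℂ) * (charDegree (χ : G → ℂ) : ℂ)) else 0) = avg N φ 1 := by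
        rw [havg2]
        apply Finset.sum_congr rfl
        intro χ _
        split_ifs <;> simp
      rw [h2, havg1]
      field_simp
    exact_mod_cast h1
  have hnd : ¬ p ∣ ∑ χ : IrrCharacter G,
      (if avg N (χ : G → ℂ) = (χ : G → ℂ) then m χ * charDegree (χ : G → ℂ) else 0) := by
    intro hd
    apply P.not_dvd_index
    rw [← hnat]
    exact Dvd.dvd.mul_left hd _
  obtain ⟨χ, hχ⟩ : ∃ χ : IrrCharacter G, ¬ p ∣
      (if avg N (χ : G → ℂ) = (χ : G → ℂ) then m χ * charDegree (χ : G → ℂ) else 0) := by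
    by_contra hcon
    push Not at hcon
    exact hnd (Finset.dvd_sum (fun χ _ => hcon χ))
  by_cases hav : avg N (χ : G → ℂ) = (χ : G → ℂ)
  swap
  · rw [if_neg hav] at hχ
    exact absurd (dvd_zero p) hχ
  rw [if_pos hav] at hχ
  refine ⟨χ, ?_, ?_, ?_⟩
  · intro n hn
    have := avg_mul_left N (χ : G → ℂ) hn 1
    rw [hav, mul_one] at this
    exact this
  · intro hd
    exact hχ (Dvd.dvd.mul_left hd _)
  · rw [← Cfsg.Agent.Lib.Helper32Ind.frobenius (P : Subgroup G) lam (χ : G → ℂ)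
      (fun g h => irr_conj χ g h), hm' χ]
    intro h0
    have : m χ = 0 := by exact_mod_cast h0
    apply hχ
    rw [this, zero_mul]
    exact dvd_zero p

theorem inf_sylow_le_frattini (P : Sylow p G) (N R : Subgroup G) [N.Normal]
    (hN : ¬ p ∣ Nat.card N)
    (hR : ∀ χ : IrrCharacter G, (∀ n ∈ N, (χ : G → ℂ) n = (χ : G → ℂ) 1) →
      ¬ p ∣ charDegree (χ : G → ℂ) → ∀ r ∈ R, (χ : G → ℂ) r = (χ : G → ℂ) 1) :
    R ⊓ (P : Subgroup G) ≤ (frattini P).map (P : Subgroup G).subtype := by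
  classical
  let _ : Fintype ↥(P : Subgroup G) := Fintype.ofFinite _
  intro x hx
  refine ⟨⟨x, hx.2⟩, ?_, rfl⟩
  apply (Cfsg.Agent.S0012.result p P.isPGroup').1
  by_contra hcon
  have hne : (Abelianization.of (⟨x, hx.2⟩ : (P : Subgroup G))) ≠ 1 := by
    intro h
    apply hcon
    have : (⟨x, hx.2⟩ : (P : Subgroup G)) ∈ (Abelianization.of : (P : Subgroup G) →* _).ker := h
    rwa [Abelianization.ker_of] at this
  obtain ⟨φ, hφ⟩ := CommGroup.exists_apply_ne_one_of_hasEnoughRootsOfUnity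
    (Abelianization (P : Subgroup G)) ℂ hne
  set f : ↥(P : Subgroup G) →* ℂˣ := φ.comp Abelianization.of with hf
  obtain ⟨χ, h1, h2, h3⟩ := exists_irr_over_linear P N hN f
  have hk := hR χ h1 h2 x hx.1
  apply h3
  have hχc := Cfsg.Agent.Lib.Helper4Char.IsIrrCharacter.isCharacter χ.2
  set S : ℂ := ∑ y : ↥(P : Subgroup G), ((f y : ℂˣ) : ℂ) * conj ((χ : G → ℂ) y) with hS
  have e1 : S = ((f ⟨x, hx.2⟩ : ℂˣ) : ℂ) * S := by
    rw [hS, Finset.mul_sum]
    symm
    apply Fintype.sum_equiv (Equiv.mulRight (⟨x, hx.2⟩ : (P : Subgroup G)))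
    intro y
    simp only [Equiv.coe_mulRight, map_mul, Units.val_mul, Subgroup.coe_mul]
    rw [char_mul_of_mem_ker hχc _ hk]
    ring
  have e2 : ((f ⟨x, hx.2⟩ : ℂˣ) : ℂ) ≠ 1 := by
    intro h
    apply hφ
    apply Units.ext
    exact h
  have e3 : S = 0 := by
    have : (1 - ((f ⟨x, hx.2⟩ : ℂˣ) : ℂ)) * S = 0 := by
      rw [sub_mul, one_mul, ← e1, sub_self]
    rcases mul_eq_zero.1 this with h | h
    · exact absurd (sub_eq_zero.1 h).symm e2
    · exact h
  unfold classInner
  rw [← hS, e3, mul_zero]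

end Cfsg.Agent.Lib.Helper82PQChar
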